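import Mathlib

/-!
Finite facts about the involutions of the alternating group of degree 6, for the
statement on Sylow 2-subgroups of Aut(A6).
-/

set_option autoImplicit false

namespace Cfsg.Agent.Lib.A6Invol

open Equiv

def u0 : Perm (Fin 6) := swap 0 1 * swap 2 3

theorem sign_u0 : Perm.sign u0 = 1 := by decide +kernel

set_option maxRecDepth 100000 in
theorem fact1 : (Finset.univ.filter (fun g : Perm (Fin 6) =>
    Perm.sign g = 1 ∧ g ^ 2 = 1 ∧ g ≠ 1)).card = 45 := by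
  decide +kernel

set_option maxRecDepth 100000 in
theorem fact2 : ∀ v : Perm (Fin 6), Perm.sign v = 1 → v ^ 2 = 1 → v ≠ 1 →
    ∃ g : Perm (Fin 6), Perm.sign g = 1 ∧ g * u0 * g⁻¹ = v := by
  decide +kernel

set_option maxRecDepth 100000 in
theorem fact3 : ∀ v : Perm (Fin 6), Perm.sign v = 1 → v ^ 2 = 1 → v ≠ 1 →
    (∃ t : Perm (Fin 6), Perm.sign t = 1 ∧ t ≠ 1 ∧ t * u0 = u0 * t ∧ t * v = v * t) ∨
    (v ≠ u0 ∧ (u0 * v) ^ 3 = 1) ∨ (v ≠ u0 ∧ (u0 * v) ^ 5 = 1) := by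
  decide +kernel

set_option maxRecDepth 100000 in
theorem fact4 : (Finset.univ.filter (fun w : Perm (Fin 6) =>
    Perm.sign w = 1 ∧ w ^ 2 = 1 ∧ w ≠ 1 ∧ w ≠ u0 ∧ (u0 * w) ^ 3 = 1)).card ≤ 16 := by
  decide +kernel

set_option maxRecDepth 100000 in
theorem fact5 : (Finset.univ.filter (fun w : Perm (Fin 6) =>
    Perm.sign w = 1 ∧ w ^ 2 = 1 ∧ w ≠ 1 ∧ w ≠ u0 ∧ (u0 * w) ^ 5 = 1)).card ≤ 16 := by
  decide +kernel

end Cfsg.Agent.Lib.A6Invol
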