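import Mathlib

/-!
# Permutations of eight points as natural numbers

Codes (24 bits, three per point), composition, inversion, words and sifting, all written with the
raw `Nat` functions: this is what the kernel evaluates fastest.
-/

set_option autoImplicit false

namespace Cfsg.Agent.Lib.A8Code

abbrev S8 := Equiv.Perm (Fin 8)

/-- The `i`-th digit in base eight. -/
def dg (P i : ℕ) : ℕ := Nat.land (Nat.shiftRight P (Nat.mul 3 i)) 7

theorem dg_eq (P i : ℕ) : dg P i = P / 8 ^ i % 8 := by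
  have h1 : Nat.land (Nat.shiftRight P (Nat.mul 3 i)) 7 = (P >>> (3 * i)) &&& (2 ^ 3 - 1) := rfl
  rw [dg, h1, Nat.and_two_pow_sub_one_eq_mod, Nat.shiftRight_eq_div_pow, pow_mul]
  norm_num

theorem dg_lt (P i : ℕ) : dg P i < 8 := by
  rw [dg_eq]; omega

/-- The code of a permutation. -/
def pc (σ : S8) : ℕ :=
  (σ 0).val + 8 * (σ 1).val + 64 * (σ 2).val + 512 * (σ 3).val + 4096 * (σ 4).val +
    32768 * (σ 5).val + 262144 * (σ 6).val + 2097152 * (σ 7).val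

theorem pc_sum (σ : S8) : pc σ = ∑ j : Fin 8, (σ j).val * 8 ^ j.val := by
  rw [Fin.sum_univ_eight, pc]
  simp only [Fin.val_zero, Fin.val_one, Fin.val_two]
  norm_num
  ring

theorem dg_pc (σ : S8) (i : Fin 8) : dg (pc σ) i.val = (σ i).val := by
  have h0 := (σ 0).isLt
  have h1 := (σ 1).isLt
  have h2 := (σ 2).isLt
  have h3 := (σ 3).isLt
  have h4 := (σ 4).isLt
  have h5 := (σ 5).isLt
  have h6 := (σ 6).isLt
  have h7 := (σ 7).isLt
  rw [dg_eq, pc]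
  fin_cases i <;> simp only [Fin.mk_zero, Fin.isValue, Fin.reduceFinMk] <;> norm_num <;> omega

theorem pc_inj {σ τ : S8} (h : pc σ = pc τ) : σ = τ := by
  ext i
  rw [← dg_pc, ← dg_pc, h]

/-- Composition of codes. -/
def cmp (a b : ℕ) : ℕ :=
  Nat.add (Nat.land (Nat.shiftRight a (Nat.mul 3 (Nat.land b 7))) 7)
  (Nat.add (Nat.mul 8 (Nat.land (Nat.shiftRight a (Nat.mul 3 (Nat.land (Nat.shiftRight b 3) 7))) 7))
  (Nat.add (Nat.mul 64 (Nat.land (Nat.shiftRight a (Nat.mul 3 (Nat.land (Nat.shiftRight b 6) 7))) 7))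
  (Nat.add (Nat.mul 512 (Nat.land (Nat.shiftRight a (Nat.mul 3 (Nat.land (Nat.shiftRight b 9) 7))) 7))
  (Nat.add (Nat.mul 4096 (Nat.land (Nat.shiftRight a (Nat.mul 3 (Nat.land (Nat.shiftRight b 12) 7))) 7))
  (Nat.add (Nat.mul 32768 (Nat.land (Nat.shiftRight a (Nat.mul 3 (Nat.land (Nat.shiftRight b 15) 7))) 7))
  (Nat.add (Nat.mul 262144 (Nat.land (Nat.shiftRight a (Nat.mul 3 (Nat.land (Nat.shiftRight b 18) 7))) 7))
  (Nat.mul 2097152 (Nat.land (Nat.shiftRight a (Nat.mul 3 (Nat.land (Nat.shiftRight b 21) 7))) 7))))))))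

theorem cmp_eq (a b : ℕ) : cmp a b = dg a (dg b 0) + (8 * dg a (dg b 1) + (64 * dg a (dg b 2) +
    (512 * dg a (dg b 3) + (4096 * dg a (dg b 4) + (32768 * dg a (dg b 5) +
    (262144 * dg a (dg b 6) + 2097152 * dg a (dg b 7))))))) := by
  have h : dg b 0 = Nat.land b 7 := rfl
  rw [h]
  rfl

theorem cmp_pc (σ τ : S8) : cmp (pc σ) (pc τ) = pc (σ * τ) := by
  rw [cmp_eq]
  have h0 := dg_pc τ 0
  have h1 := dg_pc τ 1
  have h2 := dg_pc τ 2
  have h3 := dg_pc τ 3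
  have h4 := dg_pc τ 4
  have h5 := dg_pc τ 5
  have h6 := dg_pc τ 6
  have h7 := dg_pc τ 7
  change dg (pc τ) 0 = _ at h0
  change dg (pc τ) 1 = _ at h1
  change dg (pc τ) 2 = _ at h2
  change dg (pc τ) 3 = _ at h3
  change dg (pc τ) 4 = _ at h4
  change dg (pc τ) 5 = _ at h5
  change dg (pc τ) 6 = _ at h6
  change dg (pc τ) 7 = _ at h7
  rw [h0, h1, h2, h3, h4, h5, h6, h7]
  simp only [dg_pc]
  simp only [pc, Equiv.Perm.coe_mul, Function.comp_apply]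
  ring

/-- The identity code. -/
def idC : ℕ := 16434824

theorem pc_one : pc 1 = idC := by
  decide +kernel

theorem pc_eq_idC {σ : S8} (h : pc σ = idC) : σ = 1 := by
  apply pc_inj
  rw [h, pc_one]

/-- The inverse of a code. -/
def invC (P : ℕ) : ℕ :=
  Nat.add (Nat.shiftLeft 1 (Nat.mul 3 (Nat.land (Nat.shiftRight P 3) 7)))
  (Nat.add (Nat.shiftLeft 2 (Nat.mul 3 (Nat.land (Nat.shiftRight P 6) 7)))
  (Nat.add (Nat.shiftLeft 3 (Nat.mul 3 (Nat.land (Nat.shiftRight P 9) 7)))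
  (Nat.add (Nat.shiftLeft 4 (Nat.mul 3 (Nat.land (Nat.shiftRight P 12) 7)))
  (Nat.add (Nat.shiftLeft 5 (Nat.mul 3 (Nat.land (Nat.shiftRight P 15) 7)))
  (Nat.add (Nat.shiftLeft 6 (Nat.mul 3 (Nat.land (Nat.shiftRight P 18) 7)))
  (Nat.shiftLeft 7 (Nat.mul 3 (Nat.land (Nat.shiftRight P 21) 7))))))))

theorem invC_pc (σ : S8) : invC (pc σ) = pc σ⁻¹ := by
  have h0 : ∀ (c d : ℕ), Nat.shiftLeft c (Nat.mul 3 d) = c * 8 ^ d := by
    intro c d
    change c <<< (3 * d) = _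
    rw [Nat.shiftLeft_eq, pow_mul]
    norm_num
  have h1 := dg_pc σ 1
  have h2 := dg_pc σ 2
  have h3 := dg_pc σ 3
  have h4 := dg_pc σ 4
  have h5 := dg_pc σ 5
  have h6 := dg_pc σ 6
  have h7 := dg_pc σ 7
  change Nat.land (Nat.shiftRight (pc σ) (Nat.mul 3 1)) 7 = _ at h1
  change Nat.land (Nat.shiftRight (pc σ) (Nat.mul 3 2)) 7 = _ at h2
  change Nat.land (Nat.shiftRight (pc σ) (Nat.mul 3 3)) 7 = _ at h3
  change Nat.land (Nat.shiftRight (pc σ) (Nat.mul 3 4)) 7 = _ at h4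
  change Nat.land (Nat.shiftRight (pc σ) (Nat.mul 3 5)) 7 = _ at h5
  change Nat.land (Nat.shiftRight (pc σ) (Nat.mul 3 6)) 7 = _ at h6
  change Nat.land (Nat.shiftRight (pc σ) (Nat.mul 3 7)) 7 = _ at h7
  have h8 : invC (pc σ) = ∑ i : Fin 8, i.val * 8 ^ (σ i).val := by
    rw [Fin.sum_univ_eight]
    change Nat.add (Nat.shiftLeft 1 (Nat.mul 3 (Nat.land (Nat.shiftRight (pc σ) (Nat.mul 3 1)) 7)))
      (Nat.add (Nat.shiftLeft 2 (Nat.mul 3 (Nat.land (Nat.shiftRight (pc σ) (Nat.mul 3 2)) 7)))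
      (Nat.add (Nat.shiftLeft 3 (Nat.mul 3 (Nat.land (Nat.shiftRight (pc σ) (Nat.mul 3 3)) 7)))
      (Nat.add (Nat.shiftLeft 4 (Nat.mul 3 (Nat.land (Nat.shiftRight (pc σ) (Nat.mul 3 4)) 7)))
      (Nat.add (Nat.shiftLeft 5 (Nat.mul 3 (Nat.land (Nat.shiftRight (pc σ) (Nat.mul 3 5)) 7)))
      (Nat.add (Nat.shiftLeft 6 (Nat.mul 3 (Nat.land (Nat.shiftRight (pc σ) (Nat.mul 3 6)) 7)))
      (Nat.shiftLeft 7 (Nat.mul 3 (Nat.land (Nat.shiftRight (pc σ) (Nat.mul 3 7)) 7))))))))  = _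
    rw [h1, h2, h3, h4, h5, h6, h7]
    simp only [h0, Nat.add_eq]
    simp only [Fin.val_zero, Fin.val_one, Fin.val_two]
    norm_num
    ring
  rw [h8, pc_sum]
  rw [← Equiv.sum_comp σ (fun j : Fin 8 => ((σ⁻¹ j).val * 8 ^ j.val))]
  simp

/-- A code is valid if all eight points appear as digits. -/
def valid (P : ℕ) : Bool :=
  and (Nat.ble P 16777215)
    (Nat.beq
      (Nat.lor (Nat.shiftLeft 1 (Nat.land P 7))
      (Nat.lor (Nat.shiftLeft 1 (Nat.land (Nat.shiftRight P 3) 7))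
      (Nat.lor (Nat.shiftLeft 1 (Nat.land (Nat.shiftRight P 6) 7))
      (Nat.lor (Nat.shiftLeft 1 (Nat.land (Nat.shiftRight P 9) 7))
      (Nat.lor (Nat.shiftLeft 1 (Nat.land (Nat.shiftRight P 12) 7))
      (Nat.lor (Nat.shiftLeft 1 (Nat.land (Nat.shiftRight P 15) 7))
      (Nat.lor (Nat.shiftLeft 1 (Nat.land (Nat.shiftRight P 18) 7))
      (Nat.shiftLeft 1 (Nat.land (Nat.shiftRight P 21) 7)))))))))
      255)

theorem valid_spec {P : ℕ} (h : valid P = true) : ∃ σ : S8, pc σ = P := by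
  rw [valid, Bool.and_eq_true, Nat.ble_eq, Nat.beq_eq] at h
  obtain ⟨h1, h2⟩ := h
  let f : Fin 8 → Fin 8 := fun i => ⟨dg P i.val, dg_lt _ _⟩
  have hf : ∀ i, (f i).val = dg P i.val := fun _ => rfl
  have hsurj : Function.Surjective f := by
    intro j
    have h3 : Nat.testBit 255 j.val = true := by
      revert j; decide
    rw [← h2] at h3
    have hd : ∀ (c : ℕ), Nat.shiftLeft 1 c = 2 ^ c := by
      intro c
      change 1 <<< c = _
      rw [Nat.shiftLeft_eq, one_mul]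
    have hor : ∀ x y : ℕ, Nat.lor x y = x ||| y := fun _ _ => rfl
    have hd0 : Nat.land P 7 = dg P 0 := rfl
    simp only [hd, hor, Nat.testBit_or, Nat.testBit_two_pow, Bool.or_eq_true,
      decide_eq_true_eq] at h3
    rcases h3 with h3 | h3 | h3 | h3 | h3 | h3 | h3 | h3
    · exact ⟨0, Fin.ext (hd0.symm.trans h3)⟩
    · exact ⟨1, Fin.ext h3⟩
    · exact ⟨2, Fin.ext h3⟩
    · exact ⟨3, Fin.ext h3⟩
    · exact ⟨4, Fin.ext h3⟩
    · exact ⟨5, Fin.ext h3⟩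
    · exact ⟨6, Fin.ext h3⟩
    · exact ⟨7, Fin.ext h3⟩
  have hbij : Function.Bijective f := Finite.surjective_iff_bijective.mp hsurj
  refine ⟨Equiv.ofBijective f hbij, ?_⟩
  change (f 0).val + 8 * (f 1).val + 64 * (f 2).val + 512 * (f 3).val + 4096 * (f 4).val +
    32768 * (f 5).val + 262144 * (f 6).val + 2097152 * (f 7).val = P
  simp only [hf, dg_eq]
  norm_num
  omega

/-- All of `0, …, n - 1` satisfy `f`. -/
noncomputable def allB (n : ℕ) (f : ℕ → Bool) : Bool :=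
  Nat.rec true (fun i r => and (f i) r) n

theorem allB_spec {n : ℕ} {f : ℕ → Bool} (h : allB n f = true) : ∀ i, i < n → f i = true := by
  induction n with
  | zero => intro i hi; omega
  | succ n ih =>
    have h' : and (f n) (allB n f) = true := h
    rw [Bool.and_eq_true] at h'
    intro i hi
    rcases Nat.lt_succ_iff_lt_or_eq.mp hi with hi | rfl
    · exact ih h'.2 i hi
    · exact h'.1

/-! ## Codes of the elements of a subgroup -/

/-- `c` is the code of an element of `K`. -/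
def KC (K : Subgroup S8) (c : ℕ) : Prop := ∃ σ ∈ K, pc σ = c

theorem KC_id (K : Subgroup S8) : KC K idC := ⟨1, K.one_mem, pc_one⟩

theorem KC_cmp {K : Subgroup S8} {a b : ℕ} (ha : KC K a) (hb : KC K b) : KC K (cmp a b) := by
  obtain ⟨σ, hσ, rfl⟩ := ha
  obtain ⟨τ, hτ, rfl⟩ := hb
  exact ⟨σ * τ, K.mul_mem hσ hτ, (cmp_pc σ τ).symm⟩

theorem KC_inv {K : Subgroup S8} {a : ℕ} (ha : KC K a) : KC K (invC a) := by
  obtain ⟨σ, hσ, rfl⟩ := ha
  exact ⟨σ⁻¹, K.inv_mem hσ, (invC_pc σ).symm⟩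

theorem KC_mono {K K' : Subgroup S8} (h : K ≤ K') {a : ℕ} (ha : KC K a) : KC K' a := by
  obtain ⟨σ, hσ, rfl⟩ := ha
  exact ⟨σ, h hσ, rfl⟩

theorem mem_of_KC {K : Subgroup S8} {σ : S8} (h : KC K (pc σ)) : σ ∈ K := by
  obtain ⟨τ, hτ, he⟩ := h
  rwa [← pc_inj he]

/-- The letter with digit `d`. -/
def letter (g0 g1 g2 r d : ℕ) : ℕ :=
  cond (Nat.beq d 1) g0 (cond (Nat.beq d 2) g1 (cond (Nat.beq d 3) g2 r))

theorem KC_letter {K : Subgroup S8} {g0 g1 g2 r : ℕ} (h0 : KC K g0) (h1 : KC K g1) (h2 : KC K g2)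
    (hr : KC K r) (d : ℕ) : KC K (letter g0 g1 g2 r d) := by
  unfold letter
  cases Nat.beq d 1 <;> cases Nat.beq d 2 <;> cases Nat.beq d 3 <;> simp [*]

/-- Evaluate a word; digits in base eight, lowest digit first. -/
noncomputable def evalW (g0 g1 g2 r fuel w : ℕ) : ℕ :=
  Nat.rec (motive := fun _ => ℕ → ℕ) (fun _ => idC)
    (fun _ ih w => cond (Nat.beq w 0) idC
      (cmp (letter g0 g1 g2 r (Nat.land w 7)) (ih (Nat.shiftRight w 3)))) fuel w

theorem KC_evalW {K : Subgroup S8} {g0 g1 g2 r : ℕ} (h0 : KC K g0) (h1 : KC K g1) (h2 : KC K g2)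
    (hr : KC K r) (fuel w : ℕ) : KC K (evalW g0 g1 g2 r fuel w) := by
  induction fuel generalizing w with
  | zero => exact KC_id K
  | succ f ih =>
    change KC K (cond (Nat.beq w 0) idC
      (cmp (letter g0 g1 g2 r (Nat.land w 7)) (evalW g0 g1 g2 r f (Nat.shiftRight w 3))))
    cases Nat.beq w 0
    · exact KC_cmp (KC_letter h0 h1 h2 hr _) (ih _)
    · exact KC_id K

/-- A 24-bit slot. -/
def slot24 (T s : ℕ) : ℕ := Nat.land (Nat.shiftRight T (Nat.mul 24 s)) 16777215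

/-- One step of sifting at the point `j`. -/
def stp (T j x : ℕ) : ℕ :=
  cond (Nat.beq (dg x j) j) x (cmp (slot24 T (Nat.add (Nat.mul 8 j) (dg x j))) x)

/-- Sifting through the table `T`. -/
def sift (T x : ℕ) : Bool :=
  Nat.beq (stp T 6 (stp T 5 (stp T 4 (stp T 3 (stp T 2 (stp T 1 (stp T 0 x))))))) idC

theorem stp_spec {L : Subgroup S8} {T j : ℕ} (hT : ∀ s, s < 64 → KC L (slot24 T s)) (hj : j < 8)
    {ξ η : S8} (hη : η * ξ⁻¹ ∈ L) : ∃ η' : S8, η' * ξ⁻¹ ∈ L ∧ pc η' = stp T j (pc η) := by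
  unfold stp
  cases h : Nat.beq (dg (pc η) j) j
  · have hlt : Nat.add (Nat.mul 8 j) (dg (pc η) j) < 64 := by
      have := dg_lt (pc η) j
      change 8 * j + dg (pc η) j < 64
      omega
    obtain ⟨τ, hτ, he⟩ := hT _ hlt
    refine ⟨τ * η, ?_, ?_⟩
    · rw [mul_assoc]
      exact L.mul_mem hτ hη
    · rw [cond_false, ← he, cmp_pc]
  · exact ⟨η, hη, by rw [cond_true]⟩

theorem sift_spec {L : Subgroup S8} {T : ℕ} (hT : ∀ s, s < 64 → KC L (slot24 T s)) {ξ : S8}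
    (h : sift T (pc ξ) = true) : ξ ∈ L := by
  have h0 : ξ * ξ⁻¹ ∈ L := by simp
  obtain ⟨η0, h0, e0⟩ := stp_spec (j := 0) hT (by norm_num) h0
  obtain ⟨η1, h1, e1⟩ := stp_spec (j := 1) hT (by norm_num) h0
  obtain ⟨η2, h2, e2⟩ := stp_spec (j := 2) hT (by norm_num) h1
  obtain ⟨η3, h3, e3⟩ := stp_spec (j := 3) hT (by norm_num) h2
  obtain ⟨η4, h4, e4⟩ := stp_spec (j := 4) hT (by norm_num) h3
  obtain ⟨η5, h5, e5⟩ := stp_spec (j := 5) hT (by norm_num) h4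
  obtain ⟨η6, h6, e6⟩ := stp_spec (j := 6) hT (by norm_num) h5
  rw [sift, Nat.beq_eq, ← e0, ← e1, ← e2, ← e3, ← e4, ← e5, ← e6] at h
  rw [pc_eq_idC h, one_mul] at h6
  simpa using L.inv_mem h6

end Cfsg.Agent.Lib.A8Code
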