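import Mathlib
import Cfsg.Agent.Lib.A8Code
import Cfsg.Agent.Lib.A8Gens

/-!
# Climbing in the lattice of subgroups of the alternating group of degree eight
-/

set_option autoImplicit false

namespace Cfsg.Agent.Lib.A8Code

theorem beq_false_of_ne {a b : ℕ} (h : a ≠ b) : Nat.beq a b = false := by
  cases h1 : Nat.beq a b
  · rfl
  · exact absurd (Nat.eq_of_beq_eq_true h1) h

/-- The `k`-th subgroup. -/
def Lk (k : ℕ) : Subgroup S8 :=
  Subgroup.closure {σ | pc σ = gen k 0 ∨ pc σ = gen k 1 ∨ pc σ = gen k 2}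

/-- `K` contains the generators of the `k`-th subgroup. -/
def Cov (K : Subgroup S8) (k : ℕ) : Prop :=
  KC K (gen k 0) ∧ KC K (gen k 1) ∧ KC K (gen k 2)

theorem Lk_le {K : Subgroup S8} {k : ℕ} (h : Cov K k) : Lk k ≤ K := by
  rw [Lk, Subgroup.closure_le]
  rintro σ (h1 | h1 | h1)
  · exact mem_of_KC (h1 ▸ h.1)
  · exact mem_of_KC (h1 ▸ h.2.1)
  · exact mem_of_KC (h1 ▸ h.2.2)

theorem valid_gens : allB 50 (fun k => and (valid (gen k 0)) (and (valid (gen k 1)) (valid (gen k 2))))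
    = true := by
  decide +kernel

theorem Cov_Lk {k : ℕ} (hk : k < 50) : Cov (Lk k) k := by
  have h := allB_spec valid_gens k hk
  simp only [Bool.and_eq_true] at h
  obtain ⟨σ0, h0⟩ := valid_spec h.1
  obtain ⟨σ1, h1⟩ := valid_spec h.2.1
  obtain ⟨σ2, h2⟩ := valid_spec h.2.2
  refine ⟨⟨σ0, Subgroup.subset_closure (Or.inl h0), h0⟩,
    ⟨σ1, Subgroup.subset_closure (Or.inr (Or.inl h1)), h1⟩,
    ⟨σ2, Subgroup.subset_closure (Or.inr (Or.inr h2)), h2⟩⟩

/-- The `s`-th word of 96 bits. -/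
def word96 (TW s : ℕ) : ℕ :=
  Nat.land (Nat.shiftRight TW (Nat.mul 96 s)) 79228162514264337593543950335

/-- The sifting table consists of elements of the subgroup, as shown by words. -/
noncomputable def checkT (k T TW : ℕ) : Bool :=
  allB 64 (fun s => Nat.beq (evalW (gen k 0) (gen k 1) (gen k 2) idC 32 (word96 TW s)) (slot24 T s))

theorem checkT_spec {k T TW : ℕ} (hk : k < 50) (h : checkT k T TW = true) :
    ∀ s, s < 64 → KC (Lk k) (slot24 T s) := by
  intro s hs
  have h1 := allB_spec h s hs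
  rw [Nat.beq_eq] at h1
  rw [← h1]
  have h2 := Cov_Lk hk
  exact KC_evalW h2.1 h2.2.1 h2.2.2 (KC_id _) _ _

/-- Fields of the coset table. -/
def eR (E i : ℕ) : ℕ := Nat.land (Nat.shiftRight E (Nat.mul 80 i)) 16777215
def ePa (E i : ℕ) : ℕ := Nat.land (Nat.shiftRight E (Nat.add (Nat.mul 80 i) 24)) 65535
def ePb (E i : ℕ) : ℕ := Nat.land (Nat.shiftRight E (Nat.add (Nat.mul 80 i) 40)) 65535
def ePar (E i : ℕ) : ℕ := Nat.land (Nat.shiftRight E (Nat.add (Nat.mul 80 i) 56)) 16777215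

/-- Check the certificate with index `c`: the generators of a later subgroup are words in the
generators and `r`. -/
noncomputable def certOK (k C W g0 g1 g2 r c : ℕ) : Bool :=
  let s := Nat.shiftRight C (Nat.mul (Nat.add 6 (Nat.mul 3 W)) c)
  let t := Nat.land s 63
  let m := Nat.sub (Nat.shiftLeft 1 W) 1
  and (Nat.ble (Nat.succ k) t) (and (Nat.ble (Nat.succ t) 41) (and
    (Nat.beq (evalW g0 g1 g2 r 32 (Nat.land (Nat.shiftRight s 6) m)) (gen t 0)) (and
    (Nat.beq (evalW g0 g1 g2 r 32 (Nat.land (Nat.shiftRight s (Nat.add 6 W)) m)) (gen t 1))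
    (Nat.beq (evalW g0 g1 g2 r 32 (Nat.land (Nat.shiftRight s (Nat.add 6 (Nat.mul 2 W))) m))
      (gen t 2)))))

theorem certOK_spec {K : Subgroup S8} {k C W g0 g1 g2 r c : ℕ} (h0 : KC K g0) (h1 : KC K g1)
    (h2 : KC K g2) (hr : KC K r) (h : certOK k C W g0 g1 g2 r c = true) :
    ∃ t, k < t ∧ t < 41 ∧ Cov K t := by
  simp only [certOK, Bool.and_eq_true, Nat.ble_eq, Nat.beq_eq] at h
  obtain ⟨ht1, ht2, e0, e1, e2⟩ := h
  refine ⟨_, ht1, ht2, ?_, ?_, ?_⟩
  · rw [← e0]; exact KC_evalW h0 h1 h2 hr _ _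
  · rw [← e1]; exact KC_evalW h0 h1 h2 hr _ _
  · rw [← e2]; exact KC_evalW h0 h1 h2 hr _ _

/-- The check at the coset with index `i`. -/
noncomputable def checkCoset (k n T E C W g0 g1 g2 i : ℕ) : Bool :=
  let r := eR E i
  let pa := ePa E i
  let pb := ePb E i
  let par := ePar E i
  and (valid r) (and (Nat.ble (Nat.succ pa) n) (and (Nat.ble (Nat.succ pb) n)
  (and (sift T (cmp (invC (eR E pa)) (cmp aC r)))
  (and (sift T (cmp (invC (eR E pb)) (cmp bC r)))
    (cond (Nat.beq i 0) (Nat.beq r idC)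
      (cond (Nat.beq (Nat.land par 1) 1)
        (certOK k C W g0 g1 g2 r (Nat.shiftRight par 1))
        (let j := Nat.shiftRight par 3
         and (Nat.ble 1 j) (and (Nat.ble (Nat.succ j) i)
          (sift T (cmp (invC r)
            (cmp (letter g0 g1 g2 idC (Nat.land (Nat.shiftRight par 1) 3)) (eR E j)))))))))))) 

/-- The check for the `k`-th subgroup. -/
noncomputable def checkL (k n T TW E C W : ℕ) : Bool :=
  and (Nat.ble 1 n) (and (checkT k T TW)
    (allB n (checkCoset k n T E C W (gen k 0) (gen k 1) (gen k 2))))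

theorem gen_top : gen 40 0 = aC ∧ gen 40 1 = bC ∧ gen 40 2 = idC := by
  decide +kernel

/-- One step up. -/
theorem step {k n T TW E C W : ℕ} (hk : k < 50) (hchk : checkL k n T TW E C W = true)
    (hA : alternatingGroup (Fin 8) = Lk 40) {K : Subgroup S8} (hK : K ≤ alternatingGroup (Fin 8))
    (hC : Cov K k) : K = Lk k ∨ ∃ t, k < t ∧ t < 41 ∧ Cov K t := by
  rw [checkL, Bool.and_eq_true, Bool.and_eq_true, Nat.ble_eq] at hchk
  obtain ⟨hn, hT0, hall⟩ := hchk
  have hT := checkT_spec hk hT0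
  have hc := allB_spec hall
  have hGL := Cov_Lk hk
  -- the facts at a coset
  have hv : ∀ i, i < n → ∃ ρ : S8, pc ρ = eR E i := by
    intro i hi
    have h := hc i hi
    simp only [checkCoset, Bool.and_eq_true] at h
    exact valid_spec h.1
  have h00 : eR E 0 = idC := by
    have h := hc 0 hn
    simp only [checkCoset, Bool.and_eq_true, Nat.beq_refl, cond_true, Nat.beq_eq] at h
    exact h.2.2.2.2.2
  have hstep : ∀ (i : ℕ), i < n → ∀ (c : ℕ), (c = aC ∨ c = bC) → ∀ ρ s : S8, pc ρ = eR E i →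
      pc s = c → ∃ i', i' < n ∧ ∃ ρ' ℓ : S8, pc ρ' = eR E i' ∧ ℓ ∈ Lk k ∧ s * ρ = ρ' * ℓ := by
    intro i hi c hc' ρ s hρ hs
    have h := hc i hi
    simp only [checkCoset, Bool.and_eq_true, Nat.ble_eq] at h
    obtain ⟨-, hpa, hpb, hsa, hsb, -⟩ := h
    have key : ∀ i', i' < n → sift T (cmp (invC (eR E i')) (cmp c (eR E i))) = true →
        ∃ i', i' < n ∧ ∃ ρ' ℓ : S8, pc ρ' = eR E i' ∧ ℓ ∈ Lk k ∧ s * ρ = ρ' * ℓ := by
      intro i' hi' hsf
      obtain ⟨ρ', hρ'⟩ := hv i' hi'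
      refine ⟨i', hi', ρ', ρ'⁻¹ * (s * ρ), hρ', ?_, by group⟩
      apply sift_spec hT
      rw [← hρ', ← hρ, ← hs, invC_pc, cmp_pc, cmp_pc] at hsf
      exact hsf
    rcases hc' with rfl | rfl
    · exact key _ hpa hsa
    · exact key _ hpb hsb
  -- every element of the alternating group lies in a coset
  have hcos0 : ∀ σ ∈ Submonoid.closure {σ : S8 | pc σ = gen 40 0 ∨ pc σ = gen 40 1 ∨ pc σ = gen 40 2},
      ∃ i, i < n ∧ ∃ ρ ℓ : S8, pc ρ = eR E i ∧ ℓ ∈ Lk k ∧ σ = ρ * ℓ := by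
    intro σ hσ
    induction hσ using Submonoid.closure_induction_left with
    | one => exact ⟨0, hn, 1, 1, by rw [h00, pc_one], one_mem _, by simp⟩
    | mul_left x hx y _ ih =>
      obtain ⟨i, hi, ρ, ℓ, hρ, hℓ, rfl⟩ := ih
      obtain ⟨e0, e1, e2⟩ := gen_top
      rcases hx with hx | hx | hx
      · obtain ⟨i', hi', ρ', ℓ', hρ', hℓ', he⟩ := hstep i hi aC (Or.inl rfl) ρ x hρ (hx.trans e0)
        refine ⟨i', hi', ρ', ℓ' * ℓ, hρ', mul_mem hℓ' hℓ, ?_⟩
        rw [← mul_assoc, he, mul_assoc]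
      · obtain ⟨i', hi', ρ', ℓ', hρ', hℓ', he⟩ := hstep i hi bC (Or.inr rfl) ρ x hρ (hx.trans e1)
        refine ⟨i', hi', ρ', ℓ' * ℓ, hρ', mul_mem hℓ' hℓ, ?_⟩
        rw [← mul_assoc, he, mul_assoc]
      · have hx1 : x = 1 := pc_eq_idC (hx.trans e2)
        refine ⟨i, hi, ρ, ℓ, hρ, hℓ, ?_⟩
        rw [hx1, one_mul]
  have hcos : ∀ σ ∈ alternatingGroup (Fin 8), ∃ i, i < n ∧ ∃ ρ ℓ : S8, pc ρ = eR E i ∧ ℓ ∈ Lk k ∧
      σ = ρ * ℓ := by
    intro σ hσ
    apply hcos0
    rw [← Subgroup.closure_toSubmonoid_of_finite]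
    rw [hA, Lk] at hσ
    exact hσ
  have hLK : Lk k ≤ K := Lk_le hC
  -- following the parents
  have hchain : ∀ i, i < n → i ≠ 0 → KC K (eR E i) → ∃ t, k < t ∧ t < 41 ∧ Cov K t := by
    intro i
    induction i using Nat.strong_induction_on with
    | _ i ih =>
      intro hi hi0 hKr
      have h := hc i hi
      have hb : Nat.beq i 0 = false := beq_false_of_ne hi0
      simp only [checkCoset, Bool.and_eq_true, hb, cond_false] at h
      obtain ⟨-, -, -, -, -, h⟩ := h
      cases hr : Nat.beq (Nat.land (ePar E i) 1) 1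
      · rw [hr, cond_false] at h
        simp only [Bool.and_eq_true, Nat.ble_eq] at h
        obtain ⟨hj1, hj2, hsf⟩ := h
        have hj2' : Nat.shiftRight (ePar E i) 3 < i := hj2
        have hjn := hj2'.trans hi
        obtain ⟨ρj, hρj⟩ := hv _ hjn
        obtain ⟨ρ, hρK, hρ⟩ := hKr
        obtain ⟨lam, hlam, hle⟩ := KC_letter hC.1 hC.2.1 hC.2.2 (KC_id K)
          (Nat.land (Nat.shiftRight (ePar E i) 1) 3)
        rw [← hρj, ← hρ, ← hle, invC_pc, cmp_pc, cmp_pc] at hsf
        have hmem := hLK (sift_spec hT hsf)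
        have hρjK : ρj ∈ K := by
          have h1 : ρj = lam⁻¹ * ρ * (ρ⁻¹ * (lam * ρj)) := by group
          rw [h1]
          exact K.mul_mem (K.mul_mem (K.inv_mem hlam) hρK) hmem
        exact ih _ hj2' hjn (by omega) ⟨ρj, hρjK, hρj⟩
      · rw [hr, cond_true] at h
        exact certOK_spec hC.1 hC.2.1 hC.2.2 hKr h
  by_cases hle : K ≤ Lk k
  · exact Or.inl (le_antisymm hle hLK)
  · right
    obtain ⟨σ, hσK, hσL⟩ := SetLike.not_le_iff_exists.mp hle
    obtain ⟨i, hi, ρ, ℓ, hρ, hℓ, rfl⟩ := hcos σ (hK hσK)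
    have hi0 : i ≠ 0 := by
      rintro rfl
      rw [h00] at hρ
      rw [pc_eq_idC hρ, one_mul] at hσL
      exact hσL hℓ
    refine hchain i hi hi0 ⟨ρ, ?_, hρ⟩
    have h1 : ρ = ρ * ℓ * ℓ⁻¹ := by group
    rw [h1]
    exact K.mul_mem hσK (K.inv_mem (hLK hℓ))

/-- The subgroups containing the `k`-th subgroup are listed. -/
theorem climb (hdata : ∀ k, k < 40 → ∃ n T TW E C W, checkL k n T TW E C W = true)
    (hA : alternatingGroup (Fin 8) = Lk 40) {K : Subgroup S8} (hK : K ≤ alternatingGroup (Fin 8))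
    (d : ℕ) : ∀ k, k + d = 40 → Cov K k → ∃ t, t < 41 ∧ K = Lk t := by
  induction d using Nat.strong_induction_on with
  | _ d ih =>
    intro k hkd hC
    rcases Nat.eq_zero_or_pos d with rfl | hd
    · have hk : k = 40 := by omega
      subst hk
      exact ⟨40, by norm_num, le_antisymm (hK.trans hA.le) (Lk_le hC)⟩
    · obtain ⟨n, T, TW, E, C, W, hchk⟩ := hdata k (by omega)
      rcases step (by omega) hchk hA hK hC with h | ⟨t, ht1, ht2, hCt⟩
      · exact ⟨k, by omega, h⟩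
      · exact ih (40 - t) (by omega) t (by omega) hCt

/-! ## Lower bounds for orders -/

/-- A strictly increasing list of elements. -/
noncomputable def checkE (T E m : ℕ) : Bool :=
  allB m (fun i =>
    and (valid (slot24 E i)) (and (sift T (slot24 E i))
      (cond (Nat.beq (Nat.succ i) m) true
        (Nat.ble (Nat.succ (slot24 E i)) (slot24 E (Nat.succ i))))))

theorem card_ge {L : Subgroup S8} {T E m : ℕ} (hT : ∀ s, s < 64 → KC L (slot24 T s))
    (h : checkE T E m = true) : m ≤ Nat.card L := by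
  have hc := allB_spec h
  have hK : ∀ i, i < m → ∃ σ : S8, σ ∈ L ∧ pc σ = slot24 E i := by
    intro i hi
    have h1 := hc i hi
    simp only [Bool.and_eq_true] at h1
    obtain ⟨σ, hσ⟩ := valid_spec h1.1
    refine ⟨σ, ?_, hσ⟩
    apply sift_spec hT
    rw [hσ]
    exact h1.2.1
  have hmono : ∀ i j, i < j → j < m → slot24 E i < slot24 E j := by
    intro i j hij
    induction j, hij using Nat.le_induction with
    | base =>
      intro hj
      have h1 := hc i (by omega)
      simp only [Bool.and_eq_true] at h1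
      have h2 := h1.2.2
      have hb : Nat.beq (Nat.succ i) m = false := beq_false_of_ne (by omega)
      rw [hb, cond_false, Nat.ble_eq] at h2
      exact h2
    | succ j hj ih =>
      intro hj'
      have h1 := hc j (by omega)
      simp only [Bool.and_eq_true] at h1
      have h2 := h1.2.2
      have hb : Nat.beq (Nat.succ j) m = false := beq_false_of_ne (by omega)
      rw [hb, cond_false, Nat.ble_eq] at h2
      exact (ih (by omega)).trans h2
  choose! f hf1 hf2 using hK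
  let g : Fin m → L := fun i => ⟨f i.val, hf1 i.val i.isLt⟩
  have hg : Function.Injective g := by
    intro i j hij
    have h1 : f i.val = f j.val := congrArg Subtype.val hij
    have h2 : slot24 E i.val = slot24 E j.val := by
      rw [← hf2 i.val i.isLt, ← hf2 j.val j.isLt, h1]
    by_contra hne
    have hne' : i.val ≠ j.val := fun h => hne (Fin.ext h)
    rcases Nat.lt_or_gt_of_ne hne' with h3 | h3
    · exact absurd h2 (hmono _ _ h3 j.isLt).ne
    · exact absurd h2.symm (hmono _ _ h3 i.isLt).ne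
  have := Nat.card_le_card_of_injective g hg
  simpa using this

end Cfsg.Agent.Lib.A8Code
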