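import Mathlib
import Cfsg.Agent.Lib.A8Climb
import Cfsg.Agent.Lib.PCore

/-!
# Radical certificates and isomorphisms between listed subgroups
-/

set_option autoImplicit false

open Cfsg

namespace Cfsg.Agent.Lib.A8Code

/-! ## Radical certificates -/

/-- Membership in a list of numbers. -/
def memN (x : ℕ) (S : List ℕ) : Bool := S.any (Nat.beq x)

theorem memN_spec {x : ℕ} {S : List ℕ} : memN x S = true ↔ x ∈ S := by
  rw [memN, List.any_eq_true]
  constructor
  · rintro ⟨y, hy, h⟩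
    rwa [Nat.eq_of_beq_eq_true h]
  · intro h
    exact ⟨x, h, Nat.beq_refl x⟩

/-- Powers of a code. -/
noncomputable def powC (x m : ℕ) : ℕ := Nat.rec idC (fun _ r => cmp x r) m

theorem powC_pc (σ : S8) (m : ℕ) : powC (pc σ) m = pc (σ ^ m) := by
  induction m with
  | zero => rw [pow_zero, pc_one]; rfl
  | succ m ih =>
    change cmp (pc σ) (powC (pc σ) m) = _
    rw [ih, cmp_pc, pow_succ']

/-- The elements given by words. -/
noncomputable def radS (k : ℕ) (Wd : List ℕ) : List ℕ :=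
  Wd.map (evalW (gen k 0) (gen k 1) (gen k 2) idC 32)

/-- The check that the list is a normal subgroup of exponent `p`. -/
noncomputable def radOK (k p : ℕ) (S : List ℕ) : Bool :=
  and (memN idC S) (and (S.any (fun x => not (Nat.beq x idC)))
    (S.all (fun x => and (memN (invC x) S) (and (Nat.beq (powC x p) idC)
      (and (S.all (fun y => memN (cmp x y) S))
      (and (memN (cmp (cmp (gen k 0) x) (invC (gen k 0))) S)
      (and (memN (cmp (cmp (gen k 1) x) (invC (gen k 1))) S)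
        (memN (cmp (cmp (gen k 2) x) (invC (gen k 2))) S))))))))

variable {K : Subgroup S8}

/-- A nontrivial subgroup of exponent `p` which is normalized by `K` contradicts the vanishing of
the cores. -/
theorem false_of_normal_exp (N : Subgroup S8) (hNK : N ≤ K)
    (hnorm : ∀ g ∈ K, ∀ x ∈ N, g * x * g⁻¹ ∈ N) (p : ℕ) (hp : p.Prime)
    (hexp : ∀ x ∈ N, x ^ p = 1) (hne : N ≠ ⊥) (hO : pPrimeCore 2 ↥K = ⊥) (hO2 : pCore 2 ↥K = ⊥) :
    False := by
  have : Fact p.Prime := ⟨hp⟩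
  let N' : Subgroup ↥K := N.subgroupOf K
  have hN' : N'.Normal := by
    constructor
    intro n hn g
    rw [Subgroup.mem_subgroupOf] at hn ⊢
    exact hnorm g g.2 n hn
  have hP : IsPGroup p N' := by
    intro g
    refine ⟨1, ?_⟩
    apply Subtype.ext
    apply Subtype.ext
    have h1 : ((g : ↥K) : S8) ∈ N := by
      have := g.2
      rwa [Subgroup.mem_subgroupOf] at this
    simpa using hexp _ h1
  have hbot : N' = ⊥ := by
    by_cases hp2 : p = 2
    · subst hp2
      rw [eq_bot_iff, ← hO2]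
      exact Cfsg.Agent.Lib.PCore.le_pCore hN' hP
    · rw [eq_bot_iff, ← hO]
      apply Cfsg.Agent.Lib.PCore.le_pPrimeCore hN'
      obtain ⟨m, hm⟩ := IsPGroup.iff_card.mp hP
      rw [hm]
      exact Nat.Coprime.pow_left m ((Nat.coprime_primes hp Nat.prime_two).2 hp2)
  apply hne
  rw [eq_bot_iff]
  intro x hx
  have h1 : (⟨x, hNK hx⟩ : ↥K) ∈ N' := by
    rw [Subgroup.mem_subgroupOf]
    exact hx
  rw [hbot, Subgroup.mem_bot] at h1
  rw [Subgroup.mem_bot]
  exact congrArg Subtype.val h1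

theorem rad_false {k p : ℕ} {Wd : List ℕ} (hk : k < 50) (hp : p.Prime)
    (h : radOK k p (radS k Wd) = true) (hO : pPrimeCore 2 ↥(Lk k) = ⊥)
    (hO2 : pCore 2 ↥(Lk k) = ⊥) : False := by
  set S := radS k Wd with hS
  simp only [radOK, Bool.and_eq_true, List.any_eq_true, List.all_eq_true, Bool.not_eq_true',
    memN_spec, Nat.beq_eq] at h
  obtain ⟨h1, ⟨c, hc, hcne⟩, hall⟩ := h
  have hG := Cov_Lk hk
  have hSK : ∀ c ∈ S, KC (Lk k) c := by
    intro c hc
    rw [hS, radS, List.mem_map] at hc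
    obtain ⟨w, -, rfl⟩ := hc
    exact KC_evalW hG.1 hG.2.1 hG.2.2 (KC_id _) _ _
  let N : Subgroup S8 :=
    { carrier := {σ | pc σ ∈ S}
      mul_mem' := by
        intro a b ha hb
        have := (hall _ ha).2.2.1 _ hb
        rwa [cmp_pc] at this
      one_mem' := by
        change pc 1 ∈ S
        rw [pc_one]
        exact h1
      inv_mem' := by
        intro a ha
        have := (hall _ ha).1
        rwa [invC_pc] at this }
  have hmemN : ∀ σ, σ ∈ N ↔ pc σ ∈ S := fun _ => Iff.rfl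
  have hNK : N ≤ Lk k := fun σ hσ => mem_of_KC (hSK _ ((hmemN σ).1 hσ))
  have key : ∀ g ∈ Submonoid.closure {σ : S8 | pc σ = gen k 0 ∨ pc σ = gen k 1 ∨ pc σ = gen k 2},
      ∀ x ∈ N, g * x * g⁻¹ ∈ N := by
    intro g hg
    induction hg using Submonoid.closure_induction with
    | mem g hg1 =>
      intro x hx
      rw [hmemN] at hx ⊢
      have h2 := hall _ hx
      rcases hg1 with e | e | e
      · have h3 := h2.2.2.2.1
        rw [← e, invC_pc, cmp_pc, cmp_pc] at h3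
        exact h3
      · have h3 := h2.2.2.2.2.1
        rw [← e, invC_pc, cmp_pc, cmp_pc] at h3
        exact h3
      · have h3 := h2.2.2.2.2.2
        rw [← e, invC_pc, cmp_pc, cmp_pc] at h3
        exact h3
    | one =>
      intro x hx
      simpa using hx
    | mul a b _ _ iha ihb =>
      intro x hx
      have h3 := iha _ (ihb x hx)
      have h4 : a * b * x * (a * b)⁻¹ = a * (b * x * b⁻¹) * a⁻¹ := by group
      rw [h4]
      exact h3
  refine false_of_normal_exp N hNK ?_ p hp ?_ ?_ hO hO2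
  · intro g hg
    apply key
    rw [← Subgroup.closure_toSubmonoid_of_finite]
    exact hg
  · intro x hx
    have h2 := (hall _ ((hmemN x).1 hx)).2.1
    rw [powC_pc] at h2
    exact pc_eq_idC h2
  · obtain ⟨σ, -, rfl⟩ := hSK c hc
    intro hbot
    have h2 : σ ∈ N := (hmemN σ).2 hc
    rw [hbot, Subgroup.mem_bot] at h2
    rw [h2, pc_one] at hcne
    exact absurd (Nat.beq_refl idC) (by rw [hcne]; simp)

/-! ## Conjugate subgroups -/

theorem conj_iso {k t s : ℕ} (hk : k < 50) (ht : t < 50) (hs : valid s = true)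
    (h0 : cmp (cmp s (gen k 0)) (invC s) = gen t 0)
    (h1 : cmp (cmp s (gen k 1)) (invC s) = gen t 1)
    (h2 : cmp (cmp s (gen k 2)) (invC s) = gen t 2) : Nonempty (↥(Lk k) ≃* ↥(Lk t)) := by
  obtain ⟨σ, rfl⟩ := valid_spec hs
  let f : S8 ≃* S8 := MulAut.conj σ
  have hf : ∀ τ, f τ = σ * τ * σ⁻¹ := fun τ => MulAut.conj_apply σ τ
  have hpc : ∀ τ, pc (f τ) = cmp (cmp (pc σ) (pc τ)) (invC (pc σ)) := by
    intro τ
    rw [invC_pc, cmp_pc, cmp_pc, hf]
  have hcK := Cov_Lk hk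
  have hcT := Cov_Lk ht
  have hmap : (Lk k).map f.toMonoidHom = Lk t := by
    apply le_antisymm
    · rw [Subgroup.map_le_iff_le_comap, Lk, Subgroup.closure_le]
      rintro τ (e | e | e)
      · change f τ ∈ Lk t
        apply mem_of_KC
        rw [hpc, e, h0]
        exact hcT.1
      · change f τ ∈ Lk t
        apply mem_of_KC
        rw [hpc, e, h1]
        exact hcT.2.1
      · change f τ ∈ Lk t
        apply mem_of_KC
        rw [hpc, e, h2]
        exact hcT.2.2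
    · apply Lk_le
      obtain ⟨⟨τ0, m0, e0⟩, ⟨τ1, m1, e1⟩, ⟨τ2, m2, e2⟩⟩ := hcK
      refine ⟨⟨f τ0, Subgroup.mem_map_of_mem _ m0, ?_⟩, ⟨f τ1, Subgroup.mem_map_of_mem _ m1, ?_⟩,
        ⟨f τ2, Subgroup.mem_map_of_mem _ m2, ?_⟩⟩
      · rw [hpc, e0, h0]
      · rw [hpc, e1, h1]
      · rw [hpc, e2, h2]
  exact ⟨(f.subgroupMap (Lk k)).trans (MulEquiv.subgroupCongr hmap)⟩

/-! ## Graphs of isomorphisms -/

/-- Membership of a pair in a list of pairs. -/
def memP (x y : ℕ) (R : List (ℕ × ℕ)) : Bool :=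
  R.any (fun p => and (Nat.beq x p.1) (Nat.beq y p.2))

theorem memP_spec {x y : ℕ} {R : List (ℕ × ℕ)} : memP x y R = true ↔ (x, y) ∈ R := by
  rw [memP, List.any_eq_true]
  constructor
  · rintro ⟨⟨a, b⟩, hy, h⟩
    simp only [Bool.and_eq_true, Nat.beq_eq] at h
    obtain ⟨rfl, rfl⟩ := h
    exact hy
  · intro h
    exact ⟨(x, y), h, by simp⟩

/-- The list of pairs is closed under left multiplication with the generators. -/
def graphOK (k t : ℕ) (R : List (ℕ × ℕ)) : Bool :=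
  and (memP idC idC R) (R.all (fun p =>
    and (memP (cmp (gen k 0) p.1) (cmp (gen t 0) p.2) R)
    (and (memP (cmp (gen k 1) p.1) (cmp (gen t 1) p.2) R)
      (memP (cmp (gen k 2) p.1) (cmp (gen t 2) p.2) R))))

theorem graph_iso {k t : ℕ} (hk : k < 50) (ht : t < 50) {R : List (ℕ × ℕ)}
    (hR : graphOK k t R = true) (hn1 : (R.map Prod.fst).Nodup) (hn2 : (R.map Prod.snd).Nodup) :
    Nonempty (↥(Lk k) ≃* ↥(Lk t)) := by
  simp only [graphOK, Bool.and_eq_true, List.all_eq_true, memP_spec] at hR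
  obtain ⟨hid, hall⟩ := hR
  let X : Set (S8 × S8) := {w | (pc w.1 = gen k 0 ∧ pc w.2 = gen t 0) ∨
    (pc w.1 = gen k 1 ∧ pc w.2 = gen t 1) ∨ (pc w.1 = gen k 2 ∧ pc w.2 = gen t 2)}
  let Γ : Subgroup (S8 × S8) := Subgroup.closure X
  have hΓ : ∀ w ∈ Submonoid.closure X, (pc w.1, pc w.2) ∈ R := by
    intro w hw
    induction hw using Submonoid.closure_induction_left with
    | one => rw [Prod.fst_one, Prod.snd_one, pc_one]; exact hid
    | mul_left x hx y _ ih =>
      have h3 := hall _ ih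
      simp only at h3
      rcases hx with ⟨e1, e2⟩ | ⟨e1, e2⟩ | ⟨e1, e2⟩
      · have h4 := h3.1
        rw [← e1, ← e2, cmp_pc, cmp_pc] at h4
        exact h4
      · have h4 := h3.2.1
        rw [← e1, ← e2, cmp_pc, cmp_pc] at h4
        exact h4
      · have h4 := h3.2.2
        rw [← e1, ← e2, cmp_pc, cmp_pc] at h4
        exact h4
  have hΓR : ∀ w ∈ Γ, (pc w.1, pc w.2) ∈ R := by
    intro w hw
    apply hΓ
    rw [← Subgroup.closure_toSubmonoid_of_finite]
    exact hw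
  let f1 : ↥Γ →* S8 := (MonoidHom.fst S8 S8).comp Γ.subtype
  let f2 : ↥Γ →* S8 := (MonoidHom.snd S8 S8).comp Γ.subtype
  have hf1 : Function.Injective f1 := by
    intro w w' h
    have h1 : (w : S8 × S8).1 = (w' : S8 × S8).1 := h
    have h2 := List.inj_on_of_nodup_map hn1 (hΓR _ w.2) (hΓR _ w'.2) (by simp [h1])
    have h3 : pc (w : S8 × S8).2 = pc (w' : S8 × S8).2 := congrArg Prod.snd h2
    exact Subtype.ext (Prod.ext h1 (pc_inj h3))
  have hf2 : Function.Injective f2 := by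
    intro w w' h
    have h1 : (w : S8 × S8).2 = (w' : S8 × S8).2 := h
    have h2 := List.inj_on_of_nodup_map hn2 (hΓR _ w.2) (hΓR _ w'.2) (by simp [h1])
    have h3 : pc (w : S8 × S8).1 = pc (w' : S8 × S8).1 := congrArg Prod.fst h2
    exact Subtype.ext (Prod.ext (pc_inj h3) h1)
  obtain ⟨⟨a0, ma0, ea0⟩, ⟨a1, ma1, ea1⟩, ⟨a2, ma2, ea2⟩⟩ := Cov_Lk hk
  obtain ⟨⟨b0, mb0, eb0⟩, ⟨b1, mb1, eb1⟩, ⟨b2, mb2, eb2⟩⟩ := Cov_Lk ht
  have hw0 : (a0, b0) ∈ Γ := Subgroup.subset_closure (Or.inl ⟨ea0, eb0⟩)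
  have hw1 : (a1, b1) ∈ Γ := Subgroup.subset_closure (Or.inr (Or.inl ⟨ea1, eb1⟩))
  have hw2 : (a2, b2) ∈ Γ := Subgroup.subset_closure (Or.inr (Or.inr ⟨ea2, eb2⟩))
  have hr1 : f1.range = Lk k := by
    apply le_antisymm
    · rintro _ ⟨w, rfl⟩
      have hw := w.2
      change (w : S8 × S8).1 ∈ Lk k
      have hle : Γ ≤ (Lk k).comap (MonoidHom.fst S8 S8) := by
        rw [Subgroup.closure_le]
        rintro ⟨x, y⟩ (⟨e1, -⟩ | ⟨e1, -⟩ | ⟨e1, -⟩)
        · exact Subgroup.subset_closure (Or.inl e1)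
        · exact Subgroup.subset_closure (Or.inr (Or.inl e1))
        · exact Subgroup.subset_closure (Or.inr (Or.inr e1))
      exact hle hw
    · apply Lk_le
      exact ⟨⟨a0, ⟨⟨_, hw0⟩, rfl⟩, ea0⟩, ⟨a1, ⟨⟨_, hw1⟩, rfl⟩, ea1⟩, ⟨a2, ⟨⟨_, hw2⟩, rfl⟩, ea2⟩⟩
  have hr2 : f2.range = Lk t := by
    apply le_antisymm
    · rintro _ ⟨w, rfl⟩
      have hw := w.2
      change (w : S8 × S8).2 ∈ Lk t
      have hle : Γ ≤ (Lk t).comap (MonoidHom.snd S8 S8) := by
        rw [Subgroup.closure_le]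
        rintro ⟨x, y⟩ (⟨-, e1⟩ | ⟨-, e1⟩ | ⟨-, e1⟩)
        · exact Subgroup.subset_closure (Or.inl e1)
        · exact Subgroup.subset_closure (Or.inr (Or.inl e1))
        · exact Subgroup.subset_closure (Or.inr (Or.inr e1))
      exact hle hw
    · apply Lk_le
      exact ⟨⟨b0, ⟨⟨_, hw0⟩, rfl⟩, eb0⟩, ⟨b1, ⟨⟨_, hw1⟩, rfl⟩, eb1⟩, ⟨b2, ⟨⟨_, hw2⟩, rfl⟩, eb2⟩⟩
  exact ⟨(MulEquiv.subgroupCongr hr1).symm.trans ((MonoidHom.ofInjective hf1).symm.trans
    ((MonoidHom.ofInjective hf2).trans (MulEquiv.subgroupCongr hr2)))⟩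

/-- Listed subgroup inside the image of an injective homomorphism, with at least as many
elements. -/
theorem iso_of_le_range {T : Type*} [Group T] [Finite T] (φ : T →* S8)
    (hφ : Function.Injective φ) {L : Subgroup S8} (hle : L ≤ φ.range)
    (hcard : Nat.card T ≤ Nat.card L) : Nonempty (↥L ≃* T) := by
  have h1 : Nat.card φ.range = Nat.card T := Nat.card_congr (MonoidHom.ofInjective hφ).symm.toEquiv
  have h2 : L = φ.range := Subgroup.eq_of_le_of_card_ge hle (by rw [h1]; exact hcard)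
  exact ⟨(MulEquiv.subgroupCongr h2).trans (MonoidHom.ofInjective hφ).symm⟩

end Cfsg.Agent.Lib.A8Code
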