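import Mathlib
import Cfsg.Agent.Lib.A8Climb
import Cfsg.Agent.Lib.A8Iso

/-!
# The natural embeddings into the symmetric group of degree eight
-/

set_option autoImplicit false

namespace Cfsg.Agent.Lib.A8Code

open Equiv

/-- The sign, with values in a group of order two of permutations. -/
def twU {m : ℕ} (w : Perm (Fin m)) (hw : w * w = 1) : ℤˣ →* Perm (Fin m) :=
  MonoidHom.mk' (fun u => if u = 1 then 1 else w) (by
    intro a b
    rcases Int.units_eq_one_or a with rfl | rfl <;> rcases Int.units_eq_one_or b with rfl | rfl <;>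
      simp [hw])

/-- Permutations of `n` points act on eight points, the other points are permuted by
`w` if the sign is `-1`. -/
def phiN (n m : ℕ) (h : n + m = 8) (w : Perm (Fin m)) (hw : w * w = 1) : Perm (Fin n) →* S8 :=
  (((finSumFinEquiv.trans (finCongr h)).permCongrHom).toMonoidHom).comp
    ((Perm.sumCongrHom (Fin n) (Fin m)).comp ((MonoidHom.id _).prod ((twU w hw).comp Perm.sign)))

theorem phiN_injective (n m : ℕ) (h : n + m = 8) (w : Perm (Fin m)) (hw : w * w = 1) :
    Function.Injective (phiN n m h w hw) := by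
  intro a b hab
  have h1 := ((finSumFinEquiv.trans (finCongr h)).permCongrHom).injective hab
  have h2 := Perm.sumCongrHom_injective h1
  exact congrArg Prod.fst h2

def w2 : Perm (Fin 3) := swap 0 1
def w2' : Perm (Fin 2) := swap 0 1

theorem w2_sq : w2 * w2 = 1 := by decide
theorem w2'_sq : w2' * w2' = 1 := by decide

/-- `S₅` -/
abbrev phi5 : Perm (Fin 5) →* S8 := phiN 5 3 rfl w2 w2_sq
/-- `S₆` -/
abbrev phi6 : Perm (Fin 6) →* S8 := phiN 6 2 rfl w2' w2'_sq
/-- `S₇` -/
abbrev phi7 : Perm (Fin 7) →* S8 := phiN 7 1 rfl 1 (one_mul 1)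

def c5 : Perm (Fin 5) := swap 0 1 * swap 1 2 * swap 2 3 * swap 3 4
def t5 : Perm (Fin 5) := swap 0 1 * swap 1 2
def s5 : Perm (Fin 5) := swap 0 1
def t6 : Perm (Fin 6) := swap 0 1 * swap 1 2
def c6 : Perm (Fin 6) := swap 1 2 * swap 2 3 * swap 3 4 * swap 4 5
def d6 : Perm (Fin 6) := swap 0 1 * swap 1 2 * swap 2 3 * swap 3 4 * swap 4 5
def s6 : Perm (Fin 6) := swap 0 1
def c7 : Perm (Fin 7) := swap 0 1 * swap 1 2 * swap 2 3 * swap 3 4 * swap 4 5 * swap 5 6
def t7 : Perm (Fin 7) := swap 0 1 * swap 1 2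

theorem chk_c5 : pc (phi5 c5) = gen 41 0 := by decide +kernel
theorem chk_t5 : pc (phi5 t5) = gen 41 1 := by decide +kernel
theorem chk_t6 : pc (phi6 t6) = gen 42 0 := by decide +kernel
theorem chk_c6 : pc (phi6 c6) = gen 42 1 := by decide +kernel
theorem chk_c7 : pc (phi7 c7) = gen 43 0 := by decide +kernel
theorem chk_t7 : pc (phi7 t7) = gen 43 1 := by decide +kernel
theorem chk_c5' : pc (phi5 c5) = gen 44 0 := by decide +kernel
theorem chk_s5 : pc (phi5 s5) = gen 44 1 := by decide +kernel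
theorem chk_d6 : pc (phi6 d6) = gen 45 0 := by decide +kernel
theorem chk_s6 : pc (phi6 s6) = gen 45 1 := by decide +kernel

theorem sign_c5 : c5 ∈ alternatingGroup (Fin 5) := Perm.mem_alternatingGroup.2 (by decide +kernel)
theorem sign_t5 : t5 ∈ alternatingGroup (Fin 5) := Perm.mem_alternatingGroup.2 (by decide +kernel)
theorem sign_t6 : t6 ∈ alternatingGroup (Fin 6) := Perm.mem_alternatingGroup.2 (by decide +kernel)
theorem sign_c6 : c6 ∈ alternatingGroup (Fin 6) := Perm.mem_alternatingGroup.2 (by decide +kernel)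
theorem sign_c7 : c7 ∈ alternatingGroup (Fin 7) := Perm.mem_alternatingGroup.2 (by decide +kernel)
theorem sign_t7 : t7 ∈ alternatingGroup (Fin 7) := Perm.mem_alternatingGroup.2 (by decide +kernel)

/-! ## The general linear group of degree three over the field with two elements -/

/-- Vectors as numbers. -/
abbrev V3 := Fin 3 → ZMod 2

def bv (x : Fin 8) : V3 :=
  ![((x.val % 2 : ℕ) : ZMod 2), ((x.val / 2 % 2 : ℕ) : ZMod 2), ((x.val / 4 % 2 : ℕ) : ZMod 2)]

def vb (v : V3) : Fin 8 :=
  ⟨(v 0).val + 2 * (v 1).val + 4 * (v 2).val, by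
    have h0 := ZMod.val_lt (v 0)
    have h1 := ZMod.val_lt (v 1)
    have h2 := ZMod.val_lt (v 2)
    omega⟩

theorem vb_bv : ∀ x, vb (bv x) = x := by decide +kernel

theorem bv_vb : ∀ v, bv (vb v) = v := by decide +kernel

/-- The action on the eight vectors. -/
def glAct (g : Matrix.GeneralLinearGroup (Fin 3) (ZMod 2)) : S8 where
  toFun x := vb (g.val.mulVec (bv x))
  invFun x := vb (g⁻¹.val.mulVec (bv x))
  left_inv x := by
    simp only [bv_vb, Matrix.mulVec_mulVec, Units.inv_mul, Matrix.one_mulVec, vb_bv]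
  right_inv x := by
    simp only [bv_vb, Matrix.mulVec_mulVec, Units.mul_inv, Matrix.one_mulVec, vb_bv]

/-- The natural action as a homomorphism. -/
def phiGL : Matrix.GeneralLinearGroup (Fin 3) (ZMod 2) →* S8 :=
  MonoidHom.mk' glAct (by
    intro a b
    ext x
    simp only [glAct, Equiv.Perm.coe_mul, Function.comp_apply, Equiv.coe_fn_mk, bv_vb,
      Matrix.mulVec_mulVec, Units.val_mul])

theorem phiGL_apply (g : Matrix.GeneralLinearGroup (Fin 3) (ZMod 2)) (x : Fin 8) :
    phiGL g x = vb (g.val.mulVec (bv x)) := rfl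

theorem phiGL_injective : Function.Injective phiGL := by
  rw [injective_iff_map_eq_one]
  intro g hg
  apply Units.ext
  apply Matrix.mulVec_injective
  funext v
  have h1 := congrArg (fun σ : S8 => σ (vb v)) hg
  simp only [phiGL_apply, bv_vb, Equiv.Perm.coe_one, id_eq] at h1
  have h2 := congrArg bv h1
  rw [bv_vb, bv_vb] at h2
  simpa using h2

def gm1 : Matrix.GeneralLinearGroup (Fin 3) (ZMod 2) :=
  ⟨!![0,0,1;1,0,1;0,1,0], !![1,1,0;0,0,1;1,0,0], by decide +kernel, by decide +kernel⟩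

def gm2 : Matrix.GeneralLinearGroup (Fin 3) (ZMod 2) :=
  ⟨!![1,1,0;0,1,0;0,0,1], !![1,1,0;0,1,0;0,0,1], by decide +kernel, by decide +kernel⟩

theorem chk_gm1 : pc (phiGL gm1) = gen 46 0 := by decide +kernel
theorem chk_gm2 : pc (phiGL gm2) = gen 46 1 := by decide +kernel

theorem card_GL3 : Nat.card (Matrix.GeneralLinearGroup (Fin 3) (ZMod 2)) = 168 := by
  rw [Matrix.card_GL_field (𝔽 := ZMod 2) 3, ZMod.card, Fin.prod_univ_three]
  norm_num

end Cfsg.Agent.Lib.A8Code
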