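import Mathlib
import Cfsg.Agent.Lib.A8Code
import Cfsg.Agent.Lib.A8Gens
import Cfsg.Agent.Lib.A8Climb
import Cfsg.Agent.Lib.A8Iso
import Cfsg.Agent.Lib.A8Nat
import Cfsg.Agent.Lib.A8D.Std40
import Cfsg.Agent.Lib.A8D.Std41
import Cfsg.Agent.Lib.A8D.Std42
import Cfsg.Agent.Lib.A8D.Std43
import Cfsg.Agent.Lib.A8D.Std44
import Cfsg.Agent.Lib.A8D.Std45
import Cfsg.Agent.Lib.A8D.Std46
import Cfsg.Agent.Lib.A8D.Certs
import Cfsg.Agent.Lib.A8D.K0
import Cfsg.Agent.Lib.A8D.K1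
import Cfsg.Agent.Lib.A8D.K2
import Cfsg.Agent.Lib.A8D.K3
import Cfsg.Agent.Lib.A8D.K4
import Cfsg.Agent.Lib.A8D.K5
import Cfsg.Agent.Lib.A8D.K6
import Cfsg.Agent.Lib.A8D.K7
import Cfsg.Agent.Lib.A8D.K8
import Cfsg.Agent.Lib.A8D.K9
import Cfsg.Agent.Lib.A8D.K10
import Cfsg.Agent.Lib.A8D.K11
import Cfsg.Agent.Lib.A8D.K12
import Cfsg.Agent.Lib.A8D.K13
import Cfsg.Agent.Lib.A8D.K14
import Cfsg.Agent.Lib.A8D.K15
import Cfsg.Agent.Lib.A8D.K16
import Cfsg.Agent.Lib.A8D.K17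
import Cfsg.Agent.Lib.A8D.K18
import Cfsg.Agent.Lib.A8D.K19
import Cfsg.Agent.Lib.A8D.K20
import Cfsg.Agent.Lib.A8D.K21
import Cfsg.Agent.Lib.A8D.K22
import Cfsg.Agent.Lib.A8D.K23
import Cfsg.Agent.Lib.A8D.K24
import Cfsg.Agent.Lib.A8D.K25
import Cfsg.Agent.Lib.A8D.K26
import Cfsg.Agent.Lib.A8D.K27
import Cfsg.Agent.Lib.A8D.K28
import Cfsg.Agent.Lib.A8D.K29
import Cfsg.Agent.Lib.A8D.K30
import Cfsg.Agent.Lib.A8D.K31
import Cfsg.Agent.Lib.A8D.K32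
import Cfsg.Agent.Lib.A8D.K33
import Cfsg.Agent.Lib.A8D.K34
import Cfsg.Agent.Lib.A8D.K35
import Cfsg.Agent.Lib.A8D.K36
import Cfsg.Agent.Lib.A8D.K37
import Cfsg.Agent.Lib.A8D.K38
import Cfsg.Agent.Lib.A8D.K39

/-!
# Subgroups of the alternating group of degree eight containing a `5`-cycle or a `7`-cycle
-/

set_option autoImplicit false

open Cfsg

namespace Cfsg.Agent.Lib.A8Code

open Equiv

/-- The conclusion. -/
def Target (G : Type*) [Group G] : Prop :=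
  (∃ n : ℕ, 5 ≤ n ∧ n ≤ 8 ∧ Nonempty (G ≃* alternatingGroup (Fin n))) ∨
  Nonempty (G ≃* Perm (Fin 5)) ∨ Nonempty (G ≃* Perm (Fin 6)) ∨
  Nonempty (G ≃* Matrix.GeneralLinearGroup (Fin 3) (ZMod 2))

theorem Target.of_iso {G G' : Type*} [Group G] [Group G'] (e : G ≃* G') (h : Target G') :
    Target G := by
  rcases h with ⟨n, h5, h8, ⟨f⟩⟩ | ⟨⟨f⟩⟩ | ⟨⟨f⟩⟩ | ⟨⟨f⟩⟩
  · exact Or.inl ⟨n, h5, h8, ⟨e.trans f⟩⟩
  · exact Or.inr (Or.inl ⟨e.trans f⟩)
  · exact Or.inr (Or.inr (Or.inl ⟨e.trans f⟩))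
  · exact Or.inr (Or.inr (Or.inr ⟨e.trans f⟩))

/-- Generators of the alternating group. -/
def pa : S8 := swap 0 1 * swap 1 2
def pb : S8 := swap 1 2 * swap 2 3 * swap 3 4 * swap 4 5 * swap 5 6 * swap 6 7

theorem hA : alternatingGroup (Fin 8) = Lk 40 := by
  symm
  apply Subgroup.eq_of_le_of_card_ge
  · apply Lk_le
    refine ⟨⟨pa, Perm.mem_alternatingGroup.2 (by decide +kernel), by decide +kernel⟩,
      ⟨pb, Perm.mem_alternatingGroup.2 (by decide +kernel), by decide +kernel⟩,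
      ⟨1, one_mem _, by decide +kernel⟩⟩
  · rw [nat_card_alternatingGroup, Nat.card_eq_fintype_card, Fintype.card_fin]
    exact le_trans (by decide +kernel) Std40.card

theorem hdata : ∀ k, k < 40 → ∃ n T TW E C W, checkL k n T TW E C W = true := by
  intro k hk
  interval_cases k
  · exact ⟨_, _, _, _, _, _, K0.check⟩
  · exact ⟨_, _, _, _, _, _, K1.check⟩
  · exact ⟨_, _, _, _, _, _, K2.check⟩
  · exact ⟨_, _, _, _, _, _, K3.check⟩
  · exact ⟨_, _, _, _, _, _, K4.check⟩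
  · exact ⟨_, _, _, _, _, _, K5.check⟩
  · exact ⟨_, _, _, _, _, _, K6.check⟩
  · exact ⟨_, _, _, _, _, _, K7.check⟩
  · exact ⟨_, _, _, _, _, _, K8.check⟩
  · exact ⟨_, _, _, _, _, _, K9.check⟩
  · exact ⟨_, _, _, _, _, _, K10.check⟩
  · exact ⟨_, _, _, _, _, _, K11.check⟩
  · exact ⟨_, _, _, _, _, _, K12.check⟩
  · exact ⟨_, _, _, _, _, _, K13.check⟩
  · exact ⟨_, _, _, _, _, _, K14.check⟩
  · exact ⟨_, _, _, _, _, _, K15.check⟩
  · exact ⟨_, _, _, _, _, _, K16.check⟩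
  · exact ⟨_, _, _, _, _, _, K17.check⟩
  · exact ⟨_, _, _, _, _, _, K18.check⟩
  · exact ⟨_, _, _, _, _, _, K19.check⟩
  · exact ⟨_, _, _, _, _, _, K20.check⟩
  · exact ⟨_, _, _, _, _, _, K21.check⟩
  · exact ⟨_, _, _, _, _, _, K22.check⟩
  · exact ⟨_, _, _, _, _, _, K23.check⟩
  · exact ⟨_, _, _, _, _, _, K24.check⟩
  · exact ⟨_, _, _, _, _, _, K25.check⟩
  · exact ⟨_, _, _, _, _, _, K26.check⟩
  · exact ⟨_, _, _, _, _, _, K27.check⟩
  · exact ⟨_, _, _, _, _, _, K28.check⟩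
  · exact ⟨_, _, _, _, _, _, K29.check⟩
  · exact ⟨_, _, _, _, _, _, K30.check⟩
  · exact ⟨_, _, _, _, _, _, K31.check⟩
  · exact ⟨_, _, _, _, _, _, K32.check⟩
  · exact ⟨_, _, _, _, _, _, K33.check⟩
  · exact ⟨_, _, _, _, _, _, K34.check⟩
  · exact ⟨_, _, _, _, _, _, K35.check⟩
  · exact ⟨_, _, _, _, _, _, K36.check⟩
  · exact ⟨_, _, _, _, _, _, K37.check⟩
  · exact ⟨_, _, _, _, _, _, K38.check⟩
  · exact ⟨_, _, _, _, _, _, K39.check⟩

theorem tgt40 : Target ↥(Lk 40) :=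
  Or.inl ⟨8, by norm_num, by norm_num, ⟨MulEquiv.subgroupCongr hA.symm⟩⟩

theorem tgt41 : Target ↥(Lk 41) := by
  have hinj : Function.Injective (phi5.comp (alternatingGroup (Fin 5)).subtype) :=
    (phiN_injective _ _ _ _ _).comp Subtype.val_injective
  have hle : Lk 41 ≤ (phi5.comp (alternatingGroup (Fin 5)).subtype).range := by
    apply Lk_le
    exact ⟨⟨_, ⟨⟨c5, sign_c5⟩, rfl⟩, chk_c5⟩, ⟨_, ⟨⟨t5, sign_t5⟩, rfl⟩, chk_t5⟩,
      ⟨1, one_mem _, by decide +kernel⟩⟩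
  obtain ⟨e⟩ := iso_of_le_range _ hinj hle (by
    rw [nat_card_alternatingGroup, Nat.card_eq_fintype_card, Fintype.card_fin]
    exact le_trans (by decide +kernel) Std41.card)
  exact Or.inl ⟨5, by norm_num, by norm_num, ⟨e⟩⟩

theorem tgt42 : Target ↥(Lk 42) := by
  have hinj : Function.Injective (phi6.comp (alternatingGroup (Fin 6)).subtype) :=
    (phiN_injective _ _ _ _ _).comp Subtype.val_injective
  have hle : Lk 42 ≤ (phi6.comp (alternatingGroup (Fin 6)).subtype).range := by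
    apply Lk_le
    exact ⟨⟨_, ⟨⟨t6, sign_t6⟩, rfl⟩, chk_t6⟩, ⟨_, ⟨⟨c6, sign_c6⟩, rfl⟩, chk_c6⟩,
      ⟨1, one_mem _, by decide +kernel⟩⟩
  obtain ⟨e⟩ := iso_of_le_range _ hinj hle (by
    rw [nat_card_alternatingGroup, Nat.card_eq_fintype_card, Fintype.card_fin]
    exact le_trans (by decide +kernel) Std42.card)
  exact Or.inl ⟨6, by norm_num, by norm_num, ⟨e⟩⟩

theorem tgt43 : Target ↥(Lk 43) := by
  have hinj : Function.Injective (phi7.comp (alternatingGroup (Fin 7)).subtype) :=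
    (phiN_injective _ _ _ _ _).comp Subtype.val_injective
  have hle : Lk 43 ≤ (phi7.comp (alternatingGroup (Fin 7)).subtype).range := by
    apply Lk_le
    exact ⟨⟨_, ⟨⟨c7, sign_c7⟩, rfl⟩, chk_c7⟩, ⟨_, ⟨⟨t7, sign_t7⟩, rfl⟩, chk_t7⟩,
      ⟨1, one_mem _, by decide +kernel⟩⟩
  obtain ⟨e⟩ := iso_of_le_range _ hinj hle (by
    rw [nat_card_alternatingGroup, Nat.card_eq_fintype_card, Fintype.card_fin]
    exact le_trans (by decide +kernel) Std43.card)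
  exact Or.inl ⟨7, by norm_num, by norm_num, ⟨e⟩⟩

theorem tgt44 : Target ↥(Lk 44) := by
  have hle : Lk 44 ≤ phi5.range := by
    apply Lk_le
    exact ⟨⟨_, ⟨c5, rfl⟩, chk_c5'⟩, ⟨_, ⟨s5, rfl⟩, chk_s5⟩, ⟨1, one_mem _, by decide +kernel⟩⟩
  obtain ⟨e⟩ := iso_of_le_range _ (phiN_injective _ _ _ _ _) hle (by
    rw [Nat.card_perm, Nat.card_eq_fintype_card, Fintype.card_fin]
    exact le_trans (by decide +kernel) Std44.card)
  exact Or.inr (Or.inl ⟨e⟩)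

theorem tgt45 : Target ↥(Lk 45) := by
  have hle : Lk 45 ≤ phi6.range := by
    apply Lk_le
    exact ⟨⟨_, ⟨d6, rfl⟩, chk_d6⟩, ⟨_, ⟨s6, rfl⟩, chk_s6⟩, ⟨1, one_mem _, by decide +kernel⟩⟩
  obtain ⟨e⟩ := iso_of_le_range _ (phiN_injective _ _ _ _ _) hle (by
    rw [Nat.card_perm, Nat.card_eq_fintype_card, Fintype.card_fin]
    exact le_trans (by decide +kernel) Std45.card)
  exact Or.inr (Or.inr (Or.inl ⟨e⟩))

theorem tgt46 : Target ↥(Lk 46) := by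
  have hle : Lk 46 ≤ phiGL.range := by
    apply Lk_le
    exact ⟨⟨_, ⟨gm1, rfl⟩, chk_gm1⟩, ⟨_, ⟨gm2, rfl⟩, chk_gm2⟩, ⟨1, one_mem _, by decide +kernel⟩⟩
  obtain ⟨e⟩ := iso_of_le_range _ phiGL_injective hle (by
    rw [card_GL3]
    exact Std46.card)
  exact Or.inr (Or.inr (Or.inr ⟨e⟩))

theorem tgt47 : Target ↥(Lk 47) := by
  obtain ⟨e⟩ := graph47
  exact Target.of_iso e tgt41

theorem tgt48 : Target ↥(Lk 48) := by
  obtain ⟨e⟩ := graph48
  exact Target.of_iso e tgt44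

theorem tgt49 : Target ↥(Lk 49) := by
  obtain ⟨e⟩ := graph49
  exact Target.of_iso e tgt46

/-- Every radical-free listed subgroup is one of those in the conclusion. -/
theorem final (t : ℕ) (ht : t < 41) (hO : pPrimeCore 2 ↥(Lk t) = ⊥)
    (hO2 : pCore 2 ↥(Lk t) = ⊥) : Target ↥(Lk t) := by
  interval_cases t
  · exact (rad0 hO hO2).elim
  · exact (rad1 hO hO2).elim
  · exact (rad2 hO hO2).elim
  · exact (rad3 hO hO2).elim
  · exact (rad4 hO hO2).elim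
  · exact (rad5 hO hO2).elim
  · exact (rad6 hO hO2).elim
  · exact (rad7 hO hO2).elim
  · exact (rad8 hO hO2).elim
  · exact (rad9 hO hO2).elim
  · exact (rad10 hO hO2).elim
  · exact (rad11 hO hO2).elim
  · obtain ⟨e⟩ := conj12
    exact Target.of_iso e tgt41
  · obtain ⟨e⟩ := conj13
    exact Target.of_iso e tgt47
  · obtain ⟨e⟩ := conj14
    exact Target.of_iso e tgt47
  · obtain ⟨e⟩ := conj15
    exact Target.of_iso e tgt47
  · obtain ⟨e⟩ := conj16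
    exact Target.of_iso e tgt44
  · obtain ⟨e⟩ := conj17
    exact Target.of_iso e tgt44
  · obtain ⟨e⟩ := conj18
    exact Target.of_iso e tgt44
  · obtain ⟨e⟩ := conj19
    exact Target.of_iso e tgt48
  · obtain ⟨e⟩ := conj20
    exact Target.of_iso e tgt48
  · obtain ⟨e⟩ := conj21
    exact Target.of_iso e tgt48
  · obtain ⟨e⟩ := conj22
    exact Target.of_iso e tgt46
  · exact (rad23 hO hO2).elim
  · obtain ⟨e⟩ := conj24
    exact Target.of_iso e tgt46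
  · exact (rad25 hO hO2).elim
  · obtain ⟨e⟩ := conj26
    exact Target.of_iso e tgt49
  · exact (rad27 hO hO2).elim
  · exact (rad28 hO hO2).elim
  · obtain ⟨e⟩ := conj29
    exact Target.of_iso e tgt42
  · obtain ⟨e⟩ := conj30
    exact Target.of_iso e tgt42
  · obtain ⟨e⟩ := conj31
    exact Target.of_iso e tgt42
  · obtain ⟨e⟩ := conj32
    exact Target.of_iso e tgt45
  · obtain ⟨e⟩ := conj33
    exact Target.of_iso e tgt45
  · obtain ⟨e⟩ := conj34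
    exact Target.of_iso e tgt45
  · exact (rad35 hO hO2).elim
  · exact (rad36 hO hO2).elim
  · obtain ⟨e⟩ := conj37
    exact Target.of_iso e tgt43
  · obtain ⟨e⟩ := conj38
    exact Target.of_iso e tgt43
  · obtain ⟨e⟩ := conj39
    exact Target.of_iso e tgt43
  · exact tgt40

end Cfsg.Agent.Lib.A8Code
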