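import Mathlib
import Cfsg.Agent.Lib.FFMod
import Cfsg.Agent.Lib.InvolvesAPI
import Cfsg.Agent.Lib.ThompsonJ

/-!
# Quadratic best offenders in linear groups with abelian Sylow `2`-subgroups

Let `Γ` act faithfully on a finite `𝔽₂`-module `E` and suppose that the Sylow `2`-subgroups of `Γ` are
abelian.  If `A ≤ Γ` is a quadratic best offender and `S₃` is not a section of `Γ`, then all conjugates
of `A` commute (so `A ≤ O₂(Γ)`).

The proof takes `L = ⟨A, B⟩`, `B = A^x`, `x ∈ L` minimal with `A, B` not commuting.  Then `A` and `B` act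
regularly on the nonzero vectors of `C_E(B) / C_E(L)` and `C_E(A) / C_E(L)` (modulo the kernels) and the
best offender inequality forces these actions to be transitive, which gives an `S₃`-section on a
two-dimensional subquotient.
-/

set_option autoImplicit false
set_option linter.unusedSectionVars false
set_option linter.style.haveILetI false
set_option linter.unusedVariables false

open Cfsg

namespace Cfsg.Agent.Lib.AbOff

open Cfsg.Agent.Lib.FFMod Cfsg.Agent.Lib.InvolvesAPI Cfsg.Agent.Lib.ThompsonJ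

section Char2

variable {E : Type*} [AddCommGroup E] [Module (ZMod 2) E]

theorem add_self2 (v : E) : v + v = 0 := by
  have h : (2 : ZMod 2) • v = 0 := by
    have h2 : (2 : ZMod 2) = 0 := rfl
    rw [h2, zero_smul]
  rwa [two_smul] at h

theorem neg2 (v : E) : -v = v := neg_eq_of_add_eq_zero_left (add_self2 v)

theorem sub2 (v w : E) : v - w = v + w := by rw [sub_eq_add_neg, neg2]

theorem add_cancel2 (x y z : E) : (x + y) + (y + z) = x + z := by
  rw [add_assoc, ← add_assoc y y z, add_self2, zero_add]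

end Char2

section S3

variable {Γ : Type*} [Group Γ] {E : Type*} [AddCommGroup E] [Module (ZMod 2) E]
  (ρ : Γ →* Module.End (ZMod 2) E)

/-- The `S₃`-section on a two-dimensional subquotient. -/
theorem involves_S3 (L : Subgroup Γ) (U : Submodule (ZMod 2) E)
    (hU : ∀ l ∈ L, ∀ u ∈ U, ρ l u = u) {s t : E} (hs : s ∉ U) (ht : t ∉ U) (hst : s + t ∉ U)
    {a b : Γ} (ha : a ∈ L) (hb : b ∈ L) (has : ρ a s = s) (hbt : ρ b t = t)
    (hat : ρ a t + t + s ∈ U) (hbs : ρ b s + s + t ∈ U) :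
    Involves (Equiv.Perm (Fin 3)) Γ := by
  classical
  let e : Fin 3 → E := ![s, t, s + t]
  have e0 : e 0 = s := rfl
  have e1 : e 1 = t := rfl
  have e2 : e 2 = s + t := rfl
  have he : ∀ i j, e i + e j ∈ U → i = j := by
    intro i j h
    fin_cases i <;> fin_cases j
    · rfl
    · exact absurd h hst
    · have h' : s + (s + t) ∈ U := h
      rw [← add_assoc, add_self2, zero_add] at h'
      exact absurd h' ht
    · have h' : t + s ∈ U := h
      rw [add_comm] at h'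
      exact absurd h' hst
    · rfl
    · have h' : t + (s + t) ∈ U := h
      rw [add_comm s t, ← add_assoc, add_self2, zero_add] at h'
      exact absurd h' hs
    · have h' : (s + t) + s ∈ U := h
      rw [add_comm s t, add_assoc, add_self2, add_zero] at h'
      exact absurd h' ht
    · have h' : (s + t) + t ∈ U := h
      rw [add_assoc, add_self2, add_zero] at h'
      exact absurd h' hs
    · rfl
  have huniq : ∀ (l : Γ) (π σ : Equiv.Perm (Fin 3)), (∀ i, ρ l (e i) + e (π i) ∈ U) →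
      (∀ i, ρ l (e i) + e (σ i) ∈ U) → π = σ := by
    intro l π σ h1 h2
    ext i
    have h3 := U.add_mem (h1 i) (h2 i)
    rw [add_comm (ρ l (e i)) (e (π i)), add_cancel2] at h3
    rw [he _ _ h3]
  let K : Subgroup Γ :=
    { carrier := {l | l ∈ L ∧ ∃ π : Equiv.Perm (Fin 3), ∀ i, ρ l (e i) + e (π i) ∈ U}
      one_mem' := ⟨L.one_mem, 1, fun i => by
        simp only [map_one, Module.End.one_apply, Equiv.Perm.coe_one, id_eq, add_self2]
        exact U.zero_mem⟩
      mul_mem' := by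
        rintro l m ⟨hl, π, hπ⟩ ⟨hm, σ, hσ⟩
        refine ⟨L.mul_mem hl hm, π * σ, fun i => ?_⟩
        have h1 := hσ i
        have h2 := hπ (σ i)
        have h3 : ρ l (ρ m (e i) + e (σ i)) = ρ m (e i) + e (σ i) := hU l hl _ h1
        have h4 : ρ (l * m) (e i) + e ((π * σ) i) =
            (ρ m (e i) + e (σ i)) + (ρ l (e (σ i)) + e (π (σ i))) := by
          nth_rewrite 1 [← h3]
          rw [map_add, map_mul, Module.End.mul_apply, add_cancel2]
          rfl
        rw [h4]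
        exact U.add_mem h1 h2
      inv_mem' := by
        rintro l ⟨hl, π, hπ⟩
        refine ⟨L.inv_mem hl, π⁻¹, fun i => ?_⟩
        have h1 := hπ (π⁻¹ i)
        have hπi : π (π⁻¹ i) = i := by simp
        rw [hπi] at h1
        have h2 := hU l⁻¹ (L.inv_mem hl) _ h1
        rw [map_add, ← Module.End.mul_apply, ← map_mul, inv_mul_cancel, map_one,
          Module.End.one_apply] at h2
        rw [add_comm]
        rw [h2]
        exact h1 }
  have hKmem : ∀ l, l ∈ K ↔ (l ∈ L ∧ ∃ π : Equiv.Perm (Fin 3), ∀ i, ρ l (e i) + e (π i) ∈ U) :=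
    fun l => Iff.rfl
  let φ : K → Equiv.Perm (Fin 3) := fun x => Classical.choose x.2.2
  have hφ : ∀ (x : K) (i : Fin 3), ρ (x : Γ) (e i) + e (φ x i) ∈ U := fun x =>
    Classical.choose_spec x.2.2
  have hφu : ∀ (x : K) (π : Equiv.Perm (Fin 3)), (∀ i, ρ (x : Γ) (e i) + e (π i) ∈ U) → φ x = π :=
    fun x π h => huniq _ _ _ (hφ x) h
  let f : K →* Equiv.Perm (Fin 3) := MonoidHom.mk' φ (by
    intro x y
    apply hφu
    intro i
    have h1 := hφ y i
    have h2 := hφ x (φ y i)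
    have h3 : ρ (x : Γ) (ρ (y : Γ) (e i) + e (φ y i)) = ρ (y : Γ) (e i) + e (φ y i) :=
      hU _ x.2.1 _ h1
    have h4 : ρ ((x * y : K) : Γ) (e i) + e ((φ x * φ y) i) =
        (ρ (y : Γ) (e i) + e (φ y i)) + (ρ (x : Γ) (e (φ y i)) + e (φ x (φ y i))) := by
      nth_rewrite 1 [← h3]
      rw [map_add, add_cancel2]
      show ρ ((x : Γ) * (y : Γ)) (e i) + _ = _
      rw [map_mul, Module.End.mul_apply]
      rfl
    rw [h4]
    exact U.add_mem h1 h2)
  have haK : a ∈ K := by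
    refine ⟨ha, Equiv.swap 1 2, fun i => ?_⟩
    fin_cases i
    · show ρ a s + s ∈ U
      rw [has, add_self2]
      exact U.zero_mem
    · show ρ a t + (s + t) ∈ U
      have : ρ a t + (s + t) = ρ a t + t + s := by abel
      rw [this]
      exact hat
    · show ρ a (s + t) + t ∈ U
      rw [map_add, has]
      have : s + ρ a t + t = ρ a t + t + s := by abel
      rw [this]
      exact hat
  have hbK : b ∈ K := by
    refine ⟨hb, Equiv.swap 0 2, fun i => ?_⟩
    fin_cases i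
    · show ρ b s + (s + t) ∈ U
      have : ρ b s + (s + t) = ρ b s + s + t := by abel
      rw [this]
      exact hbs
    · show ρ b t + t ∈ U
      rw [hbt, add_self2]
      exact U.zero_mem
    · show ρ b (s + t) + s ∈ U
      rw [map_add, hbt]
      have : ρ b s + t + s = ρ b s + s + t := by abel
      rw [this]
      exact hbs
  have hfa : f ⟨a, haK⟩ = Equiv.swap 1 2 := by
    apply hφu
    intro i
    fin_cases i
    · show ρ a s + s ∈ U
      rw [has, add_self2]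
      exact U.zero_mem
    · show ρ a t + (s + t) ∈ U
      have : ρ a t + (s + t) = ρ a t + t + s := by abel
      rw [this]
      exact hat
    · show ρ a (s + t) + t ∈ U
      rw [map_add, has]
      have : s + ρ a t + t = ρ a t + t + s := by abel
      rw [this]
      exact hat
  have hfb : f ⟨b, hbK⟩ = Equiv.swap 0 2 := by
    apply hφu
    intro i
    fin_cases i
    · show ρ b s + (s + t) ∈ U
      have : ρ b s + (s + t) = ρ b s + s + t := by abel
      rw [this]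
      exact hbs
    · show ρ b t + t ∈ U
      rw [hbt, add_self2]
      exact U.zero_mem
    · show ρ b (s + t) + s ∈ U
      rw [map_add, hbt]
      have : ρ b s + t + s = ρ b s + s + t := by abel
      rw [this]
      exact hbs
  have hwords : ∀ σ : Equiv.Perm (Fin 3), σ = 1 ∨ σ = Equiv.swap 1 2 ∨ σ = Equiv.swap 0 2 ∨
      σ = Equiv.swap 1 2 * Equiv.swap 0 2 ∨ σ = Equiv.swap 0 2 * Equiv.swap 1 2 ∨
      σ = Equiv.swap 1 2 * Equiv.swap 0 2 * Equiv.swap 1 2 := by decide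
  have hsurj : Function.Surjective f := by
    intro σ
    rcases hwords σ with rfl | rfl | rfl | rfl | rfl | rfl
    · exact ⟨1, map_one f⟩
    · exact ⟨_, hfa⟩
    · exact ⟨_, hfb⟩
    · exact ⟨⟨a, haK⟩ * ⟨b, hbK⟩, by rw [map_mul, hfa, hfb]⟩
    · exact ⟨⟨b, hbK⟩ * ⟨a, haK⟩, by rw [map_mul, hfa, hfb]⟩
    · exact ⟨⟨a, haK⟩ * ⟨b, hbK⟩ * ⟨a, haK⟩, by rw [map_mul, map_mul, hfa, hfb]⟩
  exact involves_of_surj K f hsurj

end S3

section Main

variable {Γ : Type*} [Group Γ] [Finite Γ] {E : Type*} [AddCommGroup E] [Module (ZMod 2) E] [Finite E]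
  (ρ : Γ →* Module.End (ZMod 2) E)

/-- Conjugate of a subgroup. -/
abbrev cj (A : Subgroup Γ) (x : Γ) : Subgroup Γ := A.map (MulAut.conj x).toMonoidHom

theorem mem_cj {A : Subgroup Γ} {x y : Γ} : y ∈ cj A x ↔ ∃ a ∈ A, x * a * x⁻¹ = y := by
  simp [cj, Subgroup.mem_map, MulAut.conj_apply]

theorem conj_mem_cj {A : Subgroup Γ} (x : Γ) {a : Γ} (ha : a ∈ A) : x * a * x⁻¹ ∈ cj A x :=
  mem_cj.mpr ⟨a, ha, rfl⟩

theorem conj_sq (h a : Γ) : (h * a * h⁻¹) ^ 2 = h * a ^ 2 * h⁻¹ := by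
  rw [pow_two, pow_two]
  group

/-- `A` commutes with its conjugate by `h`. -/
def CC (A : Subgroup Γ) (h : Γ) : Prop :=
  ∀ a ∈ A, ∀ a' ∈ A, a * (h * a' * h⁻¹) = (h * a' * h⁻¹) * a

theorem lem_E (hab : ∀ D : Subgroup Γ, IsPGroup 2 D → ∀ x ∈ D, ∀ y ∈ D, x * y = y * x)
    {A D : Subgroup Γ} (hA2 : ∀ a ∈ A, a ^ 2 = 1) (hAD : A ≤ D) (hcomm : ∀ h ∈ D, CC A h)
    {c : Γ} (hc : c ∈ D) (hc2 : c ^ 2 = 1) : ∀ a ∈ A, a * c = c * a := by
  intro a ha
  let T : Set Γ := {y | ∃ h ∈ D, ∃ a ∈ A, y = h * a * h⁻¹}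
  have hT1 : ∀ x ∈ T, ∀ y ∈ T, x * y = y * x := by
    rintro _ ⟨h₁, hh₁, a₁, ha₁, rfl⟩ _ ⟨h₂, hh₂, a₂, ha₂, rfl⟩
    have := hcomm (h₁⁻¹ * h₂) (D.mul_mem (D.inv_mem hh₁) hh₂) a₁ ha₁ a₂ ha₂
    calc h₁ * a₁ * h₁⁻¹ * (h₂ * a₂ * h₂⁻¹)
        = h₁ * (a₁ * ((h₁⁻¹ * h₂) * a₂ * (h₁⁻¹ * h₂)⁻¹)) * h₁⁻¹ := by group
      _ = h₁ * (((h₁⁻¹ * h₂) * a₂ * (h₁⁻¹ * h₂)⁻¹) * a₁) * h₁⁻¹ := by rw [this]
      _ = _ := by group
  have hT2 : ∀ x ∈ T, x ^ 2 = 1 := by
    rintro _ ⟨h₁, _, a₁, ha₁, rfl⟩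
    rw [conj_sq, hA2 a₁ ha₁]
    group
  have hE := isElementaryAbelian_closure hT1 hT2
  have hEp : IsPGroup 2 (Subgroup.closure T) := ea_isPGroup hE
  have hcp : IsPGroup 2 (Subgroup.closure ({c} : Set Γ)) := by
    apply ea_isPGroup (p := 2)
    apply isElementaryAbelian_closure
    · rintro _ rfl _ rfl
      rfl
    · rintro _ rfl
      exact hc2
  have hnorm : Subgroup.closure ({c} : Set Γ) ≤ Subgroup.normalizer ((Subgroup.closure T : Subgroup Γ) : Set Γ) := by
    rw [Subgroup.closure_le]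
    intro z hz
    have hz' : z = c := hz
    rw [hz']
    apply Cfsg.Agent.Lib.Replacement.mem_normalizer_of_forall
    intro t ht
    have hle : Subgroup.closure T ≤ (Subgroup.closure T).comap (MulAut.conj c).toMonoidHom := by
      rw [Subgroup.closure_le]
      rintro _ ⟨h₁, hh₁, a₁, ha₁, rfl⟩
      apply Subgroup.subset_closure
      refine ⟨c * h₁, D.mul_mem hc hh₁, a₁, ha₁, ?_⟩
      simp only [MulEquiv.coe_toMonoidHom, MulAut.conj_apply]
      group
    have := hle ht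
    simpa [MulAut.conj_apply] using this
  have hp := IsPGroup.to_sup_of_normal_right' hcp hEp hnorm
  have haE : a ∈ Subgroup.closure T := by
    apply Subgroup.subset_closure
    exact ⟨1, D.one_mem, a, ha, by group⟩
  have hcE : c ∈ Subgroup.closure ({c} : Set Γ) := Subgroup.subset_closure rfl
  exact hab _ hp a (Subgroup.mem_sup_right haE) c (Subgroup.mem_sup_left hcE)

theorem exists_gen (hab : ∀ D : Subgroup Γ, IsPGroup 2 D → ∀ x ∈ D, ∀ y ∈ D, x * y = y * x)
    {A : Subgroup Γ} (hA2 : ∀ a ∈ A, a ^ 2 = 1) {g : Γ} (hg : ¬ CC A g) :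
    ∃ g' ∈ A ⊔ cj A g, ¬ CC A g' := by
  by_contra hcon
  push Not at hcon
  apply hg
  intro a ha a' ha'
  have hb2 : (g * a' * g⁻¹) ^ 2 = 1 := by
    rw [conj_sq, hA2 a' ha']
    group
  exact lem_E hab hA2 le_sup_left hcon (Subgroup.mem_sup_right (conj_mem_cj g ha')) hb2 a ha

/-- The minimal subgroup. -/
theorem exists_min (hab : ∀ D : Subgroup Γ, IsPGroup 2 D → ∀ x ∈ D, ∀ y ∈ D, x * y = y * x)
    {A : Subgroup Γ} (hA2 : ∀ a ∈ A, a ^ 2 = 1) {g : Γ} (hg : ¬ CC A g) :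
    ∃ (L : Subgroup Γ) (x : Γ), x ∈ L ∧ L = A ⊔ cj A x ∧ ¬ CC A x ∧
      ∀ R : Subgroup Γ, R ≤ L → R ≠ L → A ≤ R → ∀ h ∈ R, CC A h := by
  let F : Set (Subgroup Γ) := {L | A ≤ L ∧ ∃ g ∈ L, ¬ CC A g}
  have hF : F.Nonempty := ⟨⊤, le_top, g, trivial, hg⟩
  obtain ⟨L, hLF, hmin⟩ := (wellFounded_lt (α := Subgroup Γ)).has_min F hF
  obtain ⟨hAL, g₁, hg₁L, hg₁⟩ := hLF
  have hsub : ∀ g ∈ L, ¬ CC A g → A ⊔ cj A g = L ∧ ∃ g' ∈ L, ¬ CC A g' := by
    intro g hgL hgn
    have hle : A ⊔ cj A g ≤ L := by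
      apply sup_le hAL
      rintro _ ⟨a, ha, rfl⟩
      simp only [MulEquiv.coe_toMonoidHom, MulAut.conj_apply]
      exact L.mul_mem (L.mul_mem hgL (hAL ha)) (L.inv_mem hgL)
    obtain ⟨g', hg', hg'n⟩ := exists_gen hab hA2 hgn
    have hmem : A ⊔ cj A g ∈ F := ⟨le_sup_left, g', hg', hg'n⟩
    have heq : A ⊔ cj A g = L := by
      by_contra hne
      exact hmin _ hmem (lt_of_le_of_ne hle hne)
    exact ⟨heq, g', heq ▸ hg', hg'n⟩
  obtain ⟨_, x, hxL, hxn⟩ := hsub g₁ hg₁L hg₁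
  refine ⟨L, x, hxL, (hsub x hxL hxn).1.symm, hxn, ?_⟩
  intro R hRL hne hAR h hh
  by_contra hcon
  exact hmin R ⟨hAR, h, hh, hcon⟩ (lt_of_le_of_ne hRL hne)

/-- Pointwise stabilizer of a submodule. -/
def ptStab (W : Submodule (ZMod 2) E) : Subgroup Γ where
  carrier := {g | ∀ v ∈ W, ρ g v = v}
  one_mem' := fun v _ => by rw [map_one]; rfl
  mul_mem' := by
    intro a b ha hb v hv
    rw [map_mul, Module.End.mul_apply, hb v hv, ha v hv]
  inv_mem' := by
    intro a ha v hv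
    have := ha v hv
    calc ρ a⁻¹ v = ρ a⁻¹ (ρ a v) := by rw [this]
      _ = v := by rw [← Module.End.mul_apply, ← map_mul, inv_mul_cancel, map_one]; rfl

theorem inv_apply_apply (a : Γ) (v : E) : ρ a⁻¹ (ρ a v) = v := by
  rw [← Module.End.mul_apply, ← map_mul, inv_mul_cancel, map_one]; rfl

theorem apply_inv_apply (a : Γ) (v : E) : ρ a (ρ a⁻¹ v) = v := by
  rw [← Module.End.mul_apply, ← map_mul, mul_inv_cancel, map_one]; rfl

theorem conj_apply_apply (y c : Γ) (v : E) : ρ (y * c * y⁻¹) (ρ y v) = ρ y (ρ c v) := by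
  rw [← Module.End.mul_apply, ← map_mul, ← Module.End.mul_apply, ← map_mul]
  congr 2
  group

theorem fix_cj_of_mem {A : Subgroup Γ} (y : Γ) {v : E} (hv : v ∈ fixS ρ A) : ρ y v ∈ fixS ρ (cj A y) := by
  intro d hd
  obtain ⟨c, hc, rfl⟩ := mem_cj.mp hd
  rw [conj_apply_apply, hv c hc]

theorem mem_of_fix_cj {A : Subgroup Γ} (y : Γ) {w : E} (hw : w ∈ fixS ρ (cj A y)) :
    ρ y⁻¹ w ∈ fixS ρ A := by
  intro c hc
  have h1 := hw (y * c * y⁻¹) (conj_mem_cj y hc)
  have h2 : ρ c (ρ y⁻¹ w) = ρ y⁻¹ (ρ (y * c * y⁻¹) w) := by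
    rw [← Module.End.mul_apply, ← map_mul, ← Module.End.mul_apply, ← map_mul]
    congr 2
    group
  rw [h2, h1]

theorem card_fix_cj (A : Subgroup Γ) (y : Γ) : Nat.card (fixS ρ (cj A y)) = Nat.card (fixS ρ A) := by
  refine Nat.card_congr ⟨fun w => ⟨ρ y⁻¹ w, mem_of_fix_cj ρ y w.2⟩,
    fun v => ⟨ρ y v, fix_cj_of_mem ρ y v.2⟩, ?_, ?_⟩
  · intro w
    apply Subtype.ext
    exact apply_inv_apply ρ y _
  · intro v
    apply Subtype.ext
    exact inv_apply_apply ρ y _

theorem card_cj (A : Subgroup Γ) (y : Γ) : Nat.card (cj A y) = Nat.card A :=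
  Nat.card_congr (Subgroup.equivMapOfInjective A _ (MulAut.conj y).injective).symm.toEquiv

theorem fF_cj (A : Subgroup Γ) (y : Γ) : fF ρ (cj A y) = fF ρ A := by
  unfold fF
  rw [card_cj, card_fix_cj]

theorem cj_cj_inv (A : Subgroup Γ) (y : Γ) : cj (cj A y) y⁻¹ = A := by
  ext z
  simp only [mem_cj]
  constructor
  · rintro ⟨_, ⟨a, ha, rfl⟩, rfl⟩
    have : y⁻¹ * (y * a * y⁻¹) * y⁻¹⁻¹ = a := by group
    rwa [this]
  · intro hz
    exact ⟨y * z * y⁻¹, ⟨z, hz, rfl⟩, by group⟩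

theorem cj_mono {A B : Subgroup Γ} (h : A ≤ B) (y : Γ) : cj A y ≤ cj B y := Subgroup.map_mono h

theorem isBO_cj {A : Subgroup Γ} (hA : IsBO (p := 2) ρ A) (y : Γ) : IsBO (p := 2) ρ (cj A y) := by
  refine ⟨?_, ?_, ?_⟩
  · intro B hB
    have h1 : cj B y⁻¹ ≤ A := by
      have := cj_mono hB y⁻¹
      rwa [cj_cj_inv] at this
    have h2 := hA.le _ h1
    rw [fF_cj] at h2
    rw [fF_cj]
    exact h2
  · rintro _ ha _ hb
    obtain ⟨a, ha', rfl⟩ := mem_cj.mp ha
    obtain ⟨b, hb', rfl⟩ := mem_cj.mp hb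
    have := hA.comm a ha' b hb'
    calc y * a * y⁻¹ * (y * b * y⁻¹) = y * (a * b) * y⁻¹ := by group
      _ = y * (b * a) * y⁻¹ := by rw [this]
      _ = _ := by group
  · rintro _ ha
    obtain ⟨a, ha', rfl⟩ := mem_cj.mp ha
    rw [conj_sq, hA.pow a ha']
    group

theorem quad_cj {A : Subgroup Γ} (hq : ∀ c ∈ A, ∀ v, ρ c v - v ∈ fixS ρ A) (y : Γ) :
    ∀ c ∈ cj A y, ∀ v, ρ c v - v ∈ fixS ρ (cj A y) := by
  intro d hd v
  obtain ⟨c, hc, rfl⟩ := mem_cj.mp hd
  have h1 := fix_cj_of_mem ρ y (hq c hc (ρ y⁻¹ v))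
  have h2 : ρ y (ρ c (ρ y⁻¹ v) - ρ y⁻¹ v) = ρ (y * c * y⁻¹) v - v := by
    rw [map_sub, apply_inv_apply]
    congr 1
    rw [← Module.End.mul_apply, ← map_mul, ← Module.End.mul_apply, ← map_mul, mul_assoc]
  rwa [h2] at h1

/-- The half step. -/
theorem half {A₁ A₂ L : Subgroup Γ} {y : Γ} (hy : y ∈ L) (h2 : A₂ = cj A₁ y) (hL : L = A₁ ⊔ A₂)
    (hBO : IsBO (p := 2) ρ A₁) (hq : ∀ c ∈ A₁, ∀ v, ρ c v - v ∈ fixS ρ A₁)
    (hK : ∀ R : Subgroup Γ, R ≤ L → R ≠ L → A₂ ≤ R → ∀ c ∈ R, c ^ 2 = 1 → ∀ d ∈ A₂, c * d = d * c)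
    {t : E} (ht2 : t ∈ fixS ρ A₂) (ht : t ∉ fixS ρ L) {s : E} (hs : s ∈ fixS ρ A₁) :
    ∃ c ∈ A₁, ∃ u ∈ fixS ρ L, s = ρ c t - t + u := by
  classical
  have hU : fixS ρ L = fixS ρ A₁ ⊓ fixS ρ A₂ := by rw [hL, fixS_sup]
  have hLfix : ∀ l ∈ L, ∀ u ∈ fixS ρ L, ρ l u = u := fun l hl u hu => hu l hl
  have hA₁L : A₁ ≤ L := hL ▸ le_sup_left
  have hA₂L : A₂ ≤ L := hL ▸ le_sup_right
  -- the hom trick
  have hadd : (∀ l ∈ L, ρ l t - t ∈ fixS ρ L) → ∀ l ∈ L, ∀ m ∈ L,
      ρ (l * m) t - t = (ρ l t - t) + (ρ m t - t) := by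
    intro h l hl m hm
    have h1 : ρ l (ρ m t - t) = ρ m t - t := h m hm l hl
    rw [map_sub] at h1
    rw [map_mul, Module.End.mul_apply]
    have h3 : ρ l (ρ m t) = ρ m t - t + ρ l t := by rw [← h1]; abel
    rw [h3]
    abel
  have hR : ¬ (∀ l ∈ L, ρ l t - t ∈ fixS ρ L) := by
    intro h
    apply ht
    rw [hU]
    refine ⟨?_, ht2⟩
    intro c' hc'
    have hc'L := hA₁L hc'
    have hd : y * c' * y⁻¹ ∈ A₂ := by
      rw [h2]
      exact conj_mem_cj y hc'
    have h0 : ρ (y * c' * y⁻¹) t - t = 0 := by rw [ht2 _ hd, sub_self]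
    have e1 := hadd h y hy (c' * y⁻¹) (L.mul_mem hc'L (L.inv_mem hy))
    have e2 := hadd h c' hc'L y⁻¹ (L.inv_mem hy)
    have e3 := hadd h y hy y⁻¹ (L.inv_mem hy)
    rw [mul_inv_cancel, map_one] at e3
    rw [← mul_assoc, h0, e2] at e1
    have e4 : (0 : E) = ρ c' t - t + ((ρ y t - t) + (ρ y⁻¹ t - t)) := by
      rw [e1]
      abel
    rw [← e3] at e4
    simp only [Module.End.one_apply, sub_self, add_zero] at e4
    exact (sub_eq_zero.mp e4.symm)
  -- the subgroup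
  let R : Subgroup Γ :=
    { carrier := {l | l ∈ L ∧ ρ l t - t ∈ fixS ρ L}
      one_mem' := ⟨L.one_mem, by
        rw [map_one, Module.End.one_apply, sub_self]
        exact Submodule.zero_mem _⟩
      mul_mem' := by
        rintro l m ⟨hl, hl'⟩ ⟨hm, hm'⟩
        refine ⟨L.mul_mem hl hm, ?_⟩
        have h1 : ρ l (ρ m t - t) = ρ m t - t := hm' l hl
        rw [map_sub] at h1
        have h3 : ρ l (ρ m t) = ρ m t - t + ρ l t := by rw [← h1]; abel
        rw [map_mul, Module.End.mul_apply, h3]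
        have : ρ m t - t + ρ l t - t = (ρ m t - t) + (ρ l t - t) := by abel
        rw [this]
        exact Submodule.add_mem _ hm' hl'
      inv_mem' := by
        rintro l ⟨hl, hl'⟩
        refine ⟨L.inv_mem hl, ?_⟩
        have h1 : ρ l⁻¹ (ρ l t - t) = ρ l t - t := hl' l⁻¹ (L.inv_mem hl)
        rw [map_sub, inv_apply_apply] at h1
        have : ρ l⁻¹ t - t = -(ρ l t - t) := by
          rw [← h1]
          abel
        rw [this]
        exact Submodule.neg_mem _ hl' }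
  have hRL : R ≤ L := fun l hl => hl.1
  have hRne : R ≠ L := by
    intro h
    apply hR
    intro l hl
    have : l ∈ R := h ▸ hl
    exact this.2
  have hA₂R : A₂ ≤ R := by
    intro d hd
    refine ⟨hA₂L hd, ?_⟩
    rw [ht2 d hd, sub_self]
    exact Submodule.zero_mem _
  -- the key claim
  have hclaim : ∀ c ∈ A₁, ρ c t - t ∈ fixS ρ L → ∀ v ∈ fixS ρ A₂, ρ c v = v := by
    intro c hc hcU v hv
    have hcR : c ∈ R := ⟨hA₁L hc, hcU⟩
    have hcomm := hK R hRL hRne hA₂R c hcR (hBO.pow c hc)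
    have hcent : L ≤ Subgroup.centralizer ({c} : Set Γ) := by
      rw [hL]
      apply sup_le
      · intro a ha
        rw [Subgroup.mem_centralizer_iff]
        intro z hz
        have hz' : z = c := hz
        rw [hz']
        exact hBO.comm c hc a ha
      · intro a ha
        rw [Subgroup.mem_centralizer_iff]
        intro z hz
        have hz' : z = c := hz
        rw [hz']
        exact hcomm a ha
    have hyc : c * y = y * c := by
      have := hcent hy
      rw [Subgroup.mem_centralizer_iff] at this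
      exact this c rfl
    have hcA₂ : c ∈ A₂ := by
      rw [h2]
      have e : y * c * y⁻¹ = c := by rw [← hyc]; group
      have := conj_mem_cj y hc
      rwa [e] at this
    exact hv c hcA₂
  -- counting
  set V₁ := fixS ρ A₁ with hV₁
  set V₂ := fixS ρ A₂ with hV₂
  set U := fixS ρ L with hUdef
  let A₀ : Subgroup Γ := A₁ ⊓ ptStab ρ V₂
  have hA₀le : A₀ ≤ A₁ := inf_le_left
  have hfix0 : V₁ ⊔ V₂ ≤ fixS ρ A₀ := by
    apply sup_le
    · exact fixS_anti ρ hA₀le
    · intro v hv b hb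
      exact hb.2 v hv
  have hbo := hBO.le A₀ hA₀le
  unfold fF at hbo
  have hcardsup := card_sup_mul_card_inf_sub (p := 2) V₁ V₂
  rw [← hU] at hcardsup
  have hcardle : Nat.card ↥(V₁ ⊔ V₂) ≤ Nat.card (fixS ρ A₀) :=
    Nat.card_le_card_of_injective (Submodule.inclusion hfix0) (Submodule.inclusion_injective hfix0)
  have hV₁pos : 0 < Nat.card V₁ := Nat.card_pos
  have hA₀pos : 0 < Nat.card A₀ := Nat.card_pos
  have hstar : Nat.card A₀ * Nat.card V₂ ≤ Nat.card A₁ * Nat.card U := by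
    apply Nat.le_of_mul_le_mul_left _ hV₁pos
    calc Nat.card V₁ * (Nat.card A₀ * Nat.card V₂)
        = Nat.card A₀ * (Nat.card V₁ * Nat.card V₂) := by ring
      _ = Nat.card A₀ * (Nat.card ↥(V₁ ⊔ V₂) * Nat.card U) := by rw [hcardsup]
      _ ≤ Nat.card A₀ * (Nat.card (fixS ρ A₀) * Nat.card U) := by gcongr
      _ = (Nat.card A₀ * Nat.card (fixS ρ A₀)) * Nat.card U := by ring
      _ ≤ (Nat.card A₁ * Nat.card V₁) * Nat.card U := by gcongr
      _ = Nat.card V₁ * (Nat.card A₁ * Nat.card U) := by ring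
  -- the image
  have hgadd : ∀ c ∈ A₁, ∀ c' ∈ A₁, ρ (c * c') t - t = (ρ c t - t) + (ρ c' t - t) := by
    intro c hc c' hc'
    have h1 : ρ c (ρ c' t - t) = ρ c' t - t := hq c' hc' t c hc
    rw [map_sub] at h1
    have h3 : ρ c (ρ c' t) = ρ c' t - t + ρ c t := by rw [← h1]; abel
    rw [map_mul, Module.End.mul_apply, h3]
    abel
  let Rm : Submodule (ZMod 2) E :=
    { carrier := {e | ∃ c ∈ A₁, e = ρ c t - t}
      add_mem' := by
        rintro _ _ ⟨c, hc, rfl⟩ ⟨c', hc', rfl⟩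
        exact ⟨c * c', A₁.mul_mem hc hc', (hgadd c hc c' hc').symm⟩
      zero_mem' := ⟨1, A₁.one_mem, by rw [map_one, Module.End.one_apply, sub_self]⟩
      smul_mem' := by
        rintro r _ ⟨c, hc, rfl⟩
        have hr : r = 0 ∨ r = 1 := by
          revert r
          decide
        rcases hr with rfl | rfl
        · exact ⟨1, A₁.one_mem, by rw [map_one, Module.End.one_apply, sub_self, zero_smul]⟩
        · exact ⟨c, hc, by rw [one_smul]⟩ }
  have hRmV : Rm ≤ V₁ := by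
    rintro _ ⟨c, hc, rfl⟩
    exact hq c hc t
  have hUV : U ≤ V₁ := by
    rw [hU]
    exact inf_le_left
  have hRmU : Rm ⊓ U = ⊥ := by
    rw [eq_bot_iff]
    rintro _ ⟨⟨c, hc, rfl⟩, h⟩
    have h1 := hclaim c hc h t ht2
    rw [h1, sub_self]
    exact Submodule.zero_mem _
  -- the homomorphism
  let γ : A₁ →* Multiplicative Rm := MonoidHom.mk'
    (fun c => Multiplicative.ofAdd (⟨ρ (c : Γ) t - t, c, c.2, rfl⟩ : Rm)) (by
      intro c c'
      rw [← ofAdd_add]
      congr 1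
      apply Subtype.ext
      exact hgadd c c.2 c' c'.2)
  have hγs : Function.Surjective γ := by
    intro z
    obtain ⟨c, hc, hz⟩ := (Multiplicative.toAdd z).2
    refine ⟨⟨c, hc⟩, ?_⟩
    apply Multiplicative.toAdd.injective
    apply Subtype.ext
    exact hz.symm
  have hker : γ.ker = A₀.subgroupOf A₁ := by
    ext c
    rw [MonoidHom.mem_ker, Subgroup.mem_subgroupOf]
    constructor
    · intro h
      have h1 : ρ (c : Γ) t - t = 0 := by
        have := congrArg (fun z => ((Multiplicative.toAdd z : Rm) : E)) h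
        exact this
      refine ⟨c.2, ?_⟩
      intro v hv
      apply hclaim c c.2 _ v hv
      rw [h1]
      exact Submodule.zero_mem _
    · intro h
      apply Multiplicative.toAdd.injective
      apply Subtype.ext
      have h1 : ρ (c : Γ) t = t := h.2 t ht2
      show ρ (c : Γ) t - t = 0
      rw [h1, sub_self]
  have hcardRm : Nat.card Rm * Nat.card A₀ = Nat.card A₁ := by
    have h1 := Subgroup.index_ker γ
    have h2 := Subgroup.index_mul_card γ.ker
    rw [h1, hker, MonoidHom.range_eq_top.mpr hγs] at h2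
    have h3 : Nat.card ↥(A₀.subgroupOf A₁) = Nat.card A₀ :=
      Nat.card_congr (Subgroup.subgroupOfEquivOfLe hA₀le).toEquiv
    have h4 : Nat.card ↥(⊤ : Subgroup (Multiplicative Rm)) = Nat.card Rm := by
      rw [Subgroup.card_top]
      rfl
    rwa [h3, h4] at h2
  have hcardI := card_sup_mul_card_inf_sub (p := 2) Rm U
  rw [hRmU] at hcardI
  have hbot : Nat.card ↥(⊥ : Submodule (ZMod 2) E) = 1 := Nat.card_unique
  rw [hbot, mul_one] at hcardI
  have hV12 : Nat.card V₂ = Nat.card V₁ := by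
    rw [hV₂, hV₁, h2]
    exact card_fix_cj ρ A₁ y
  have hge : Nat.card V₁ ≤ Nat.card ↥(Rm ⊔ U) := by
    apply Nat.le_of_mul_le_mul_left _ hA₀pos
    calc Nat.card A₀ * Nat.card V₁ = Nat.card A₀ * Nat.card V₂ := by rw [hV12]
      _ ≤ Nat.card A₁ * Nat.card U := hstar
      _ = (Nat.card Rm * Nat.card A₀) * Nat.card U := by rw [hcardRm]
      _ = Nat.card A₀ * (Nat.card Rm * Nat.card U) := by ring
      _ = Nat.card A₀ * Nat.card ↥(Rm ⊔ U) := by rw [hcardI]
  have hIle : Rm ⊔ U ≤ V₁ := sup_le hRmV hUV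
  have hbij := (Submodule.inclusion_injective hIle).bijective_of_nat_card_le hge
  obtain ⟨⟨i, hi⟩, hih⟩ := hbij.2 ⟨s, hs⟩
  have his : i = s := congrArg Subtype.val hih
  rw [← his]
  obtain ⟨r, ⟨c, hc, rfl⟩, u, hu, rfl⟩ := Submodule.mem_sup.mp hi
  exact ⟨c, hc, u, hu, rfl⟩

/-- **Main theorem**: a quadratic best offender in a faithful linear group with abelian Sylow
`2`-subgroups and no `S₃`-section commutes with all its conjugates. -/
theorem main (hinj : Function.Injective ρ)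
    (hab : ∀ D : Subgroup Γ, IsPGroup 2 D → ∀ x ∈ D, ∀ y ∈ D, x * y = y * x)
    {A : Subgroup Γ} (hA : IsBO (p := 2) ρ A) (hq : ∀ c ∈ A, ∀ v, ρ c v - v ∈ fixS ρ A)
    (hS3 : ¬ Involves (Equiv.Perm (Fin 3)) Γ) (g : Γ) : CC A g := by
  classical
  by_contra hg
  obtain ⟨L, x, hxL, hL, hxn, hmin⟩ := exists_min hab hA.pow hg
  set B := cj A x with hB
  have hAL : A ≤ L := hL ▸ le_sup_left
  have hBL : B ≤ L := hL ▸ le_sup_right
  have hBO' : IsBO (p := 2) ρ B := isBO_cj ρ hA x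
  have hq' : ∀ c ∈ B, ∀ v, ρ c v - v ∈ fixS ρ B := quad_cj ρ hq x
  have hU : fixS ρ L = fixS ρ A ⊓ fixS ρ B := by rw [hL, fixS_sup]
  have hK1 : ∀ R : Subgroup Γ, R ≤ L → R ≠ L → B ≤ R → ∀ c ∈ R, c ^ 2 = 1 → ∀ d ∈ B, c * d = d * c := by
    intro R hRL hne hBR c hc hc2 d hd
    obtain ⟨a, ha, rfl⟩ := mem_cj.mp hd
    let R' := cj R x⁻¹
    have hAR' : A ≤ R' := by
      have := cj_mono hBR x⁻¹
      rwa [hB, cj_cj_inv] at this
    have hconjL : ∀ z ∈ L, ∀ w : Γ, w ∈ L → w * z * w⁻¹ ∈ L := fun z hz w hw =>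
      L.mul_mem (L.mul_mem hw hz) (L.inv_mem hw)
    have hR'L : R' ≤ L := by
      rintro _ hz
      obtain ⟨r, hr, rfl⟩ := mem_cj.mp hz
      exact hconjL r (hRL hr) _ (L.inv_mem hxL)
    have hR'ne : R' ≠ L := by
      intro h
      apply hne
      apply le_antisymm hRL
      intro z hz
      have h1 : x⁻¹ * z * x⁻¹⁻¹ ∈ R' := h ▸ hconjL z hz _ (L.inv_mem hxL)
      obtain ⟨r, hr, hrz⟩ := mem_cj.mp h1
      have : r = z := by
        have := mul_left_cancel (a := x⁻¹) (by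
          have h2 := mul_right_cancel hrz
          simpa using h2 : x⁻¹ * r = x⁻¹ * z)
        exact this
      rwa [← this]
    have hc' : x⁻¹ * c * x ∈ R' := by
      have := conj_mem_cj x⁻¹ hc
      rwa [inv_inv] at this
    have hc'2 : (x⁻¹ * c * x) ^ 2 = 1 := by
      have e := conj_sq x⁻¹ c
      rw [inv_inv] at e
      rw [e, hc2]
      group
    have h1 := lem_E hab hA.pow hAR' (hmin R' hR'L hR'ne hAR') hc' hc'2 a ha
    calc c * (x * a * x⁻¹) = x * ((x⁻¹ * c * x) * a) * x⁻¹ := by group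
      _ = x * (a * (x⁻¹ * c * x)) * x⁻¹ := by rw [h1]
      _ = _ := by group
  have hK2 : ∀ R : Subgroup Γ, R ≤ L → R ≠ L → A ≤ R → ∀ c ∈ R, c ^ 2 = 1 → ∀ d ∈ A, c * d = d * c := by
    intro R hRL hne hAR c hc hc2 d hd
    exact (lem_E hab hA.pow hAR (hmin R hRL hne hAR) hc hc2 d hd).symm
  have hA' : A = cj B x⁻¹ := by rw [hB, cj_cj_inv]
  have hL' : L = B ⊔ A := by rw [hL, sup_comm]
  have hcard : Nat.card (fixS ρ B) = Nat.card (fixS ρ A) := card_fix_cj ρ A x
  -- existence of vectors outside the fixed points of `L`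
  have hex : ∃ t ∈ fixS ρ B, t ∉ fixS ρ L := by
    by_contra hcon
    push Not at hcon
    have hVU : fixS ρ B ≤ fixS ρ L := hcon
    have hUV : fixS ρ L ≤ fixS ρ A := by
      rw [hU]
      exact inf_le_left
    have hUB : fixS ρ L ≤ fixS ρ B := by
      rw [hU]
      exact inf_le_right
    have hcard2 : Nat.card (fixS ρ A) ≤ Nat.card (fixS ρ L) := by
      rw [← hcard]
      exact Nat.card_le_card_of_injective (Submodule.inclusion hVU) (Submodule.inclusion_injective hVU)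
    have hVA : ∀ s ∈ fixS ρ A, s ∈ fixS ρ L := by
      intro s hs
      have hbij := (Submodule.inclusion_injective hUV).bijective_of_nat_card_le hcard2
      obtain ⟨⟨i, hi⟩, hih⟩ := hbij.2 ⟨s, hs⟩
      have his : i = s := congrArg Subtype.val hih
      rwa [← his]
    apply hxn
    intro a ha a' ha'
    have hb : x * a' * x⁻¹ ∈ B := conj_mem_cj x ha'
    apply hinj
    apply LinearMap.ext
    intro v
    have h1 : ρ a v - v ∈ fixS ρ L := hVA _ (hq a ha v)
    have h2 : ρ (x * a' * x⁻¹) v - v ∈ fixS ρ L := hVU (hq' _ hb v)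
    have h3 := h2 a (hAL ha)
    have h4 := h1 _ (hBL hb)
    rw [map_sub] at h3 h4
    have e1 : ρ a (ρ (x * a' * x⁻¹) v) = ρ (x * a' * x⁻¹) v - v + ρ a v := by rw [← h3]; abel
    have e2 : ρ (x * a' * x⁻¹) (ρ a v) = ρ a v - v + ρ (x * a' * x⁻¹) v := by rw [← h4]; abel
    have e3 : ρ (a * (x * a' * x⁻¹)) v = ρ a (ρ (x * a' * x⁻¹) v) := by
      rw [map_mul (f := ρ) a (x * a' * x⁻¹)]
      rfl
    have e4 : ρ ((x * a' * x⁻¹) * a) v = ρ (x * a' * x⁻¹) (ρ a v) := by
      rw [map_mul (f := ρ) (x * a' * x⁻¹) a]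
      rfl
    rw [e3, e4, e1, e2]
    abel
  obtain ⟨t, ht2, ht⟩ := hex
  have hex' : ∃ s ∈ fixS ρ A, s ∉ fixS ρ L := by
    by_contra hcon
    push Not at hcon
    have hVU : fixS ρ A ≤ fixS ρ L := hcon
    have hUB : fixS ρ L ≤ fixS ρ B := by
      rw [hU]
      exact inf_le_right
    have hcard2 : Nat.card (fixS ρ B) ≤ Nat.card (fixS ρ L) := by
      rw [hcard]
      exact Nat.card_le_card_of_injective (Submodule.inclusion hVU) (Submodule.inclusion_injective hVU)
    have hbij := (Submodule.inclusion_injective hUB).bijective_of_nat_card_le hcard2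
    obtain ⟨⟨i, hi⟩, hih⟩ := hbij.2 ⟨t, ht2⟩
    have his : i = t := congrArg Subtype.val hih
    exact ht (his ▸ hi)
  obtain ⟨s, hs1, hs⟩ := hex'
  obtain ⟨a, ha, u, hu, hau⟩ := half ρ hxL rfl hL hA hq hK1 ht2 ht hs1
  obtain ⟨b, hb, u', hu', hbu⟩ := half ρ (L.inv_mem hxL) hA' hL' hBO' hq' hK2 hs1 hs ht2
  have hst : s + t ∉ fixS ρ L := by
    intro h
    have hsL : s + t ∈ fixS ρ A := (by rw [hU] at h; exact h.1)
    have ht1 : t ∈ fixS ρ A := by
      have := Submodule.add_mem _ hs1 hsL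
      rwa [← add_assoc, add_self2, zero_add] at this
    apply ht
    rw [hU]
    exact ⟨ht1, ht2⟩
  refine hS3 (involves_S3 ρ L (fixS ρ L) (fun l hl w hw => hw l hl) hs ht hst (hAL ha) (hBL hb)
    (hs1 a ha) (ht2 b hb) ?_ ?_)
  · have : ρ a t + t + s = u := by
      rw [hau, sub2]
      have e : ρ a t + t + (ρ a t + t + u) = u := by
        rw [← add_assoc, add_self2, zero_add]
      exact e
    rw [this]
    exact hu
  · have : ρ b s + s + t = u' := by
      rw [hbu, sub2]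
      have e : ρ b s + s + (ρ b s + s + u') = u' := by
        rw [← add_assoc, add_self2, zero_add]
      exact e
    rw [this]
    exact hu'

end Main

end Cfsg.Agent.Lib.AbOff
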