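import Mathlib

/-!
# Nilpotent groups and their abelianization

The exponent of a nilpotent group is controlled by the exponent of its abelianization; a nilpotent
group with cyclic abelianization is abelian; a counting lemma for conjugation on a normal subgroup.
-/

set_option autoImplicit false
set_option linter.unusedSectionVars false
set_option linter.unusedVariables false

namespace Cfsg.Agent.Lib.NilpAbel

open scoped commutatorElement

variable {Q : Type*} [Group Q]

local notation "γ" => Subgroup.lowerCentralSeries (⊤ : Subgroup Q)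

instance lcs_normal (i : ℕ) : (γ i).Normal := by
  induction i with
  | zero => simp
  | succ i ih =>
    rw [Subgroup.lowerCentralSeries_succ]
    infer_instance

theorem lcs_succ_le (m : ℕ) : γ (m + 1) ≤ commutator Q := by
  induction m with
  | zero => rw [Subgroup.top_lowerCentralSeries_one]
  | succ m ih =>
    refine le_trans ?_ ih
    rw [Subgroup.lowerCentralSeries_succ]
    haveI := lcs_normal (Q := Q) (m + 1)
    exact Subgroup.commutator_le_left _ _

/-- Powers along the lower central series. -/
theorem pow_mem_lcs (n : ℕ) (h : ∀ g : Q, g ^ n ∈ commutator Q) :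
    ∀ i : ℕ, ∀ g ∈ γ i, g ^ n ∈ γ (i + 1) := by
  intro i
  induction i with
  | zero =>
    intro g _
    rw [Subgroup.top_lowerCentralSeries_one]
    exact h g
  | succ i ih =>
    intro g hg
    -- work modulo `C = γ (i + 2)`
    let C : Subgroup Q := γ (i + 1 + 1)
    haveI : C.Normal := lcs_normal (i + 1 + 1)
    let π : Q →* Q ⧸ C := QuotientGroup.mk' C
    have hker : ∀ x, π x = 1 ↔ x ∈ C := fun x => QuotientGroup.eq_one_iff x
    have hcen : ∀ x ∈ γ (i + 1), ∀ y : Q, Commute (π x) (π y) := by
      intro x hx y
      have h1 : ⁅x, y⁆ ∈ C := by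
        show ⁅x, y⁆ ∈ γ (i + 1 + 1)
        rw [Subgroup.lowerCentralSeries_succ]
        exact Subgroup.commutator_mem_commutator hx (Subgroup.mem_top y)
      have h2 : π ⁅x, y⁆ = 1 := (hker _).mpr h1
      rw [map_commutatorElement, commutatorElement_eq_one_iff_commute] at h2
      exact h2
    -- the subgroup of central elements with trivial `n`-th power
    let T : Subgroup Q :=
      { carrier := {x | x ∈ γ (i + 1) ∧ π x ^ n = 1}
        mul_mem' := by
          rintro a b ⟨ha1, ha2⟩ ⟨hb1, hb2⟩
          refine ⟨Subgroup.mul_mem _ ha1 hb1, ?_⟩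
          rw [map_mul, (hcen a ha1 b).mul_pow, ha2, hb2, one_mul]
        one_mem' := ⟨Subgroup.one_mem _, by simp⟩
        inv_mem' := by
          rintro a ⟨ha1, ha2⟩
          refine ⟨Subgroup.inv_mem _ ha1, ?_⟩
          rw [map_inv, inv_pow, ha2, inv_one] }
    have hle : γ (i + 1) ≤ T := by
      rw [Subgroup.lowerCentralSeries_succ, Subgroup.commutator_le]
      intro u hu y _
      have hmem : ⁅u, y⁆ ∈ γ (i + 1) := by
        rw [Subgroup.lowerCentralSeries_succ]
        exact Subgroup.commutator_mem_commutator hu (Subgroup.mem_top y)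
      refine ⟨hmem, ?_⟩
      -- `[u, y]^n ≡ [u^n, y]` modulo `C`
      have hcomm : ∀ k : ℕ, π ⁅u ^ k, y⁆ = π ⁅u, y⁆ ^ k := by
        intro k
        induction k with
        | zero => simp
        | succ k ih =>
          have e : ⁅u ^ (k + 1), y⁆ = u ^ k * ⁅u, y⁆ * (u ^ k)⁻¹ * ⁅u ^ k, y⁆ := by
            simp only [commutatorElement_def, pow_succ]
            group
          rw [e, map_mul, map_mul, map_mul, map_inv, ih]
          have h3 : Commute (π (u ^ k)) (π ⁅u, y⁆) := (hcen _ hmem (u ^ k)).symm
          rw [h3.eq, mul_inv_cancel_right, pow_succ']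
      have h4 := ih u hu
      have h5 : ⁅u ^ n, y⁆ ∈ C := by
        show ⁅u ^ n, y⁆ ∈ γ (i + 1 + 1)
        rw [Subgroup.lowerCentralSeries_succ]
        exact Subgroup.commutator_mem_commutator h4 (Subgroup.mem_top y)
      rw [← hcomm n]
      exact (hker _).mpr h5
    exact (hker _).mp (hle hg).2

/-- Iterated powers. -/
theorem pow_pow_mem_lcs (n : ℕ) (h : ∀ g : Q, g ^ n ∈ commutator Q) (g : Q) :
    ∀ k : ℕ, g ^ (n ^ k) ∈ γ k := by
  intro k
  induction k with
  | zero => simp
  | succ k ih =>
    have := pow_mem_lcs n h k _ ih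
    rw [← pow_mul, ← pow_succ] at this
    exact this

/-- A nilpotent group whose abelianization has exponent dividing `n`: every element has order
dividing a power of `n`. -/
theorem exists_pow_eq_one [hQ : Group.IsNilpotent Q] (n : ℕ) (h : ∀ g : Q, g ^ n ∈ commutator Q) :
    ∃ c : ℕ, ∀ g : Q, g ^ (n ^ c) = 1 := by
  obtain ⟨c, hc⟩ := Subgroup.nilpotent_iff_lowerCentralSeries.mp hQ
  refine ⟨c, fun g => ?_⟩
  have := pow_pow_mem_lcs n h g c
  rw [hc] at this
  exact Subgroup.mem_bot.mp this

/-- A nilpotent group with abelianization a `p`-group is a `p`-group. -/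
theorem isPGroup_of_commutator_index [Finite Q] [hQ : Group.IsNilpotent Q] {p a : ℕ}
    (h : (commutator Q).index = p ^ a) : IsPGroup p Q := by
  have h1 : ∀ g : Q, g ^ (p ^ a) ∈ commutator Q := by
    intro g
    rw [← h]
    exact Subgroup.pow_index_mem _ g
  obtain ⟨c, hc⟩ := exists_pow_eq_one (p ^ a) h1
  intro g
  refine ⟨a * c, ?_⟩
  have := hc g
  rwa [← pow_mul] at this

/-- A nilpotent group with cyclic abelianization is abelian. -/
theorem comm_of_isCyclic_abelianization [hQ : Group.IsNilpotent Q]
    (h : IsCyclic (Q ⧸ commutator Q)) : commutator Q = ⊥ := by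
  have hstep : ∀ n : ℕ, commutator Q ≤ γ (n + 1) := by
    intro n
    induction n with
    | zero => rw [Subgroup.top_lowerCentralSeries_one]
    | succ n ih =>
      -- modulo `γ (n + 2)`
      let C : Subgroup Q := γ (n + 1 + 1)
      haveI : C.Normal := lcs_normal (n + 1 + 1)
      have hC : C ≤ commutator Q := lcs_succ_le (n + 1)
      let f : Q ⧸ C →* Q ⧸ commutator Q := QuotientGroup.map C (commutator Q) (MonoidHom.id Q) hC
      have hf : f.ker ≤ Subgroup.center (Q ⧸ C) := by
        intro x hx
        obtain ⟨x, rfl⟩ := QuotientGroup.mk_surjective x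
        have h2 : x ∈ commutator Q := by
          have : f (x : Q ⧸ C) = 1 := hx
          exact (QuotientGroup.eq_one_iff x).mp this
        have h3 : x ∈ γ (n + 1) := ih h2
        rw [Subgroup.mem_center_iff]
        intro y
        obtain ⟨y, rfl⟩ := QuotientGroup.mk_surjective y
        have h4 : ⁅x, y⁆ ∈ C := by
          show ⁅x, y⁆ ∈ γ (n + 1 + 1)
          rw [Subgroup.lowerCentralSeries_succ]
          exact Subgroup.commutator_mem_commutator h3 (Subgroup.mem_top y)
        have h5 : ((⁅x, y⁆ : Q) : Q ⧸ C) = 1 := (QuotientGroup.eq_one_iff _).mpr h4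
        have h6 := map_commutatorElement (QuotientGroup.mk' C) x y
        simp only [QuotientGroup.mk'_apply] at h6
        rw [h5] at h6
        have h7 : Commute (x : Q ⧸ C) (y : Q ⧸ C) := commutatorElement_eq_one_iff_commute.mp h6.symm
        exact h7.symm.eq
      have hcomm := commutative_of_cyclic_center_quotient f hf
      show commutator Q ≤ C
      rw [commutator_def, Subgroup.commutator_le]
      intro a _ b _
      apply (QuotientGroup.eq_one_iff _).mp
      have h8 := map_commutatorElement (QuotientGroup.mk' C) a b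
      simp only [QuotientGroup.mk'_apply] at h8
      rw [h8, commutatorElement_eq_one_iff_commute]
      exact hcomm _ _
  obtain ⟨c, hc⟩ := Subgroup.nilpotent_iff_lowerCentralSeries.mp hQ
  apply le_bot_iff.mp
  have h1 := hstep c
  have h2 : γ (c + 1) ≤ γ c := by
    rw [Subgroup.lowerCentralSeries_succ]
    haveI := lcs_normal (Q := Q) c
    exact Subgroup.commutator_le_left _ _
  rw [← hc]
  exact h1.trans h2

/-- Size of a conjugacy class times the centralizer order is the group order. -/
theorem card_conj_mul_card_centralizer' {Γ : Type*} [Group Γ] [Finite Γ] (h : Γ) :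
    Nat.card {x : Γ // IsConj h x} * Nat.card (Subgroup.centralizer ({h} : Set Γ)) =
      Nat.card Γ := by
  classical
  letI : Fintype Γ := Fintype.ofFinite Γ
  haveI : Fintype (MulAction.orbit (ConjAct Γ) h) := Fintype.ofFinite _
  haveI : Fintype (MulAction.stabilizer (ConjAct Γ) h) := Fintype.ofFinite _
  haveI : Fintype (ConjAct Γ) := inferInstanceAs (Fintype Γ)
  have h1 := MulAction.card_orbit_mul_card_stabilizer_eq_card_group (ConjAct Γ) h
  have e1 : {x : Γ // IsConj h x} ≃ MulAction.orbit (ConjAct Γ) h :=
    Equiv.subtypeEquivRight (fun x => by rw [ConjAct.mem_orbit_conjAct, isConj_comm])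
  have hmem : ∀ x : Γ, x ∈ Subgroup.centralizer ({h} : Set Γ) ↔
      ConjAct.toConjAct x ∈ MulAction.stabilizer (ConjAct Γ) h := by
    intro x
    rw [Subgroup.centralizer_eq_comap_stabilizer]
    rfl
  have e2 : Subgroup.centralizer ({h} : Set Γ) ≃ MulAction.stabilizer (ConjAct Γ) h :=
    { toFun := fun x => ⟨ConjAct.toConjAct x.1, (hmem _).mp x.2⟩
      invFun := fun y => ⟨ConjAct.ofConjAct y.1, (hmem _).mpr (by
        rw [ConjAct.toConjAct_ofConjAct]; exact y.2)⟩
      left_inv := fun x => by simp
      right_inv := fun y => by simp }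
  rw [Nat.card_congr e1, Nat.card_congr e2]
  simp only [Nat.card_eq_fintype_card]
  rw [h1]
  exact Fintype.card_congr ConjAct.ofConjAct.toEquiv

/-- Counting orbits: if `A` is a normal subgroup of a finite group and all nonidentity elements of `A`
have the same centralizer `B`, then the index of `B` divides `|A| - 1`. -/
theorem index_dvd_card_sub_one {Γ : Type*} [Group Γ] [Finite Γ] (A B : Subgroup Γ) [A.Normal]
    (h : ∀ v ∈ A, v ≠ 1 → ∀ g : Γ, g * v = v * g ↔ g ∈ B) : B.index ∣ Nat.card A - 1 := by
  classical
  letI : Fintype Γ := Fintype.ofFinite Γ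
  set Y : Finset Γ := Finset.univ.filter (fun v => v ∈ A ∧ v ≠ 1) with hY
  have hYcard : Y.card = Nat.card A - 1 := by
    have h1 : Finset.univ.filter (fun v : Γ => v ∈ A) = insert 1 Y := by
      ext v
      simp only [Finset.mem_filter, Finset.mem_univ, true_and, Finset.mem_insert, hY]
      constructor
      · intro hv
        by_cases h1 : v = 1
        · exact Or.inl h1
        · exact Or.inr ⟨hv, h1⟩
      · rintro (rfl | hv)
        · exact A.one_mem
        · exact hv.1
    have h2 : (1 : Γ) ∉ Y := by simp [hY]
    have h3 : (Finset.univ.filter (fun v : Γ => v ∈ A)).card = Nat.card A := by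
      rw [Nat.card_eq_fintype_card, Fintype.card_subtype]
    rw [h1, Finset.card_insert_of_notMem h2] at h3
    omega
  rw [← hYcard, Finset.card_eq_sum_card_fiberwise (f := fun v => ConjClasses.mk v)
    (t := Y.image (fun v => ConjClasses.mk v)) (fun v hv => by
      simp only [Finset.coe_image]
      exact Set.mem_image_of_mem _ hv)]
  apply Finset.dvd_sum
  intro c hc
  obtain ⟨v, hv, rfl⟩ := Finset.mem_image.mp hc
  have hv' : v ∈ A ∧ v ≠ 1 := by simpa [hY] using hv
  -- the fibre is the conjugacy class
  have hfib : (Y.filter (fun w => ConjClasses.mk w = ConjClasses.mk v)).card =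
      Nat.card {x : Γ // IsConj v x} := by
    rw [Nat.card_eq_fintype_card, Fintype.card_subtype]
    congr 1
    ext w
    simp only [Finset.mem_filter, hY, Finset.mem_univ, true_and]
    rw [ConjClasses.mk_eq_mk_iff_isConj]
    constructor
    · rintro ⟨_, h1⟩
      exact h1.symm
    · intro h1
      refine ⟨?_, h1.symm⟩
      obtain ⟨c, hc⟩ := isConj_iff.mp h1
      rw [← hc]
      refine ⟨(inferInstance : A.Normal).conj_mem v hv'.1 c, ?_⟩
      intro h2
      apply hv'.2
      have : c * v * c⁻¹ = c * 1 * c⁻¹ := by rw [h2]; group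
      simpa using this
  rw [hfib]
  have hcen : Subgroup.centralizer ({v} : Set Γ) = B := by
    ext g
    rw [Subgroup.mem_centralizer_singleton_iff, ← h v hv'.1 hv'.2 g]
  have h1 : Nat.card {x : Γ // IsConj v x} * Nat.card (Subgroup.centralizer ({v} : Set Γ)) =
      Nat.card Γ := by
    exact card_conj_mul_card_centralizer' v
  rw [hcen] at h1
  have h2 := Subgroup.card_mul_index B
  have h3 : Nat.card {x : Γ // IsConj v x} = B.index := by
    have hpos : 0 < Nat.card B := Nat.card_pos
    rw [← h2, mul_comm] at h1
    exact Nat.eq_of_mul_eq_mul_left hpos h1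
  rw [h3]

end Cfsg.Agent.Lib.NilpAbel
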