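import Mathlib
import Cfsg.Agent.Lib.NilpAbel
import Cfsg.Agent.Lib.Frat

set_option autoImplicit false

namespace Cfsg.Agent.Lib.AbelPSq

open scoped commutatorElement

variable {p : ℕ} [hp : Fact p.Prime]

/-- A `p`-group whose abelianization has order dividing `p` is abelian. -/
theorem comm_of_index_dvd {Q : Type*} [Group Q] [Finite Q] (hQ : IsPGroup p Q)
    (h : (commutator Q).index ∣ p) : commutator Q = ⊥ := by
  haveI : Group.IsNilpotent Q := hQ.isNilpotent
  apply Cfsg.Agent.Lib.NilpAbel.comm_of_isCyclic_abelianization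
  rcases (Nat.dvd_prime hp.out).1 h with h1 | h1
  · have : Nat.card (Q ⧸ commutator Q) = 1 := by rw [← Subgroup.index_eq_card]; exact h1
    haveI := (Nat.card_eq_one_iff_unique.1 this).1
    haveI : Nonempty (Q ⧸ commutator Q) := ⟨1⟩
    exact isCyclic_of_subsingleton
  · have : Nat.card (Q ⧸ commutator Q) = p := by rw [← Subgroup.index_eq_card]; exact h1
    exact isCyclic_of_prime_card this

theorem eq_of_le_of_index_eq {R : Type*} [Group R] [Finite R] {H K : Subgroup R} (hle : H ≤ K)
    (h : K.index = H.index) : H = K := by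
  have h1 := Subgroup.card_mul_index H
  have h2 := Subgroup.card_mul_index K
  have hpos : 0 < H.index := Nat.pos_of_ne_zero Subgroup.FiniteIndex.index_ne_zero
  rw [h] at h2
  have h3 : Nat.card H = Nat.card K := by
    apply Nat.eq_of_mul_eq_mul_right hpos
    rw [h1, h2]
  exact Subgroup.eq_of_le_of_card_ge hle h3.ge

/-- Lemma Z: a normal subgroup not in the commutator subgroup, when `|R : R'| = p²`. -/
theorem lemZ {R : Type*} [Group R] [Finite R] (hR : IsPGroup p R)
    (h : (commutator R).index = p ^ 2) (K : Subgroup R) [hKn : K.Normal]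
    (hK : ¬ K ≤ commutator R) : commutator R ≤ K ∧ K.index ∣ p := by
  have hsup : ∀ L : Subgroup R, commutator R ≤ L → L ≠ commutator R → L.index ∣ p := by
    intro L hle hLne
    have h1 : L.index ∣ (commutator R).index := Subgroup.index_dvd_of_le hle
    rw [h] at h1
    obtain ⟨j, hj, hj2⟩ := (Nat.dvd_prime_pow hp.out).1 h1
    have hj3 : j ≠ 2 := by
      rintro rfl
      exact hLne (eq_of_le_of_index_eq hle (by rw [hj2, h])).symm
    have hj4 : j ≤ 1 := by omega
    rw [hj2]
    exact (pow_dvd_pow p hj4).trans (by simp)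
  have hL := hsup (commutator R ⊔ K) le_sup_left (by
    intro e
    apply hK
    rw [← e]
    exact le_sup_right)
  let f := QuotientGroup.mk' K
  have hQ : IsPGroup p (R ⧸ K) := hR.to_quotient K
  have hmap : commutator (R ⧸ K) = (commutator R).map f := by
    rw [commutator_def, commutator_def, Subgroup.map_commutator]
    rw [Subgroup.map_top_of_surjective f (QuotientGroup.mk'_surjective K)]
  have hidx : (commutator (R ⧸ K)).index = (commutator R ⊔ K).index := by
    rw [hmap, Subgroup.index_map]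
    have : f.range.index = 1 := by
      rw [MonoidHom.range_eq_top.2 (QuotientGroup.mk'_surjective K)]
      exact Subgroup.index_top
    rw [this, mul_one, QuotientGroup.ker_mk']
  have hbot := comm_of_index_dvd hQ (by rw [hidx]; exact hL)
  have hle : commutator R ≤ K := by
    have : (commutator R).map f = ⊥ := by rw [← hmap]; exact hbot
    rw [← QuotientGroup.ker_mk' K]
    exact (Subgroup.map_eq_bot_iff _).1 this
  refine ⟨hle, ?_⟩
  have e : commutator R ⊔ K = K := sup_eq_right.2 hle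
  rwa [e] at hL

/-- Generating by a normal subgroup of prime index and an outside element. -/
theorem gen_of_index {R : Type*} [Group R] [Finite R] (K : Subgroup R) [K.Normal]
    (hidx : K.index = p) (a : R) (ha : a ∉ K) : ∀ u : R, ∃ k ∈ K, ∃ i : ℕ, u = k * a ^ i := by
  intro u
  have hcard : Nat.card (R ⧸ K) = p := by rw [← Subgroup.index_eq_card]; exact hidx
  have hne : (a : R ⧸ K) ≠ 1 := by
    rwa [Ne, QuotientGroup.eq_one_iff]
  have hmem : (u : R ⧸ K) ∈ Subgroup.zpowers (a : R ⧸ K) := mem_zpowers_of_prime_card hcard hne ..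
  obtain ⟨n, hn⟩ := (mem_powers_iff_mem_zpowers).2 hmem
  refine ⟨u * (a ^ n)⁻¹, ?_, n, by group⟩
  rw [← QuotientGroup.eq_one_iff]
  simp only [QuotientGroup.mk_mul, QuotientGroup.mk_inv, QuotientGroup.mk_pow]
  simp at hn
  rw [← hn]
  simp

/-- Lemma B: commutators from generators. -/
theorem comm_le_of_gen {R : Type*} [Group R] (E : Subgroup R) [E.Normal] (K : Subgroup R) (a : R)
    (hgen : ∀ u : R, ∃ k ∈ K, ∃ i : ℕ, u = k * a ^ i)
    (h1 : ∀ k ∈ K, ⁅k, a⁆ ∈ E) (h2 : ∀ k ∈ K, ∀ k' ∈ K, ⁅k, k'⁆ ∈ E) : commutator R ≤ E := by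
  let φ := QuotientGroup.mk' E
  have hcomm : ∀ {x y : R}, ⁅x, y⁆ ∈ E → Commute (φ x) (φ y) := by
    intro x y hxy
    have : φ ⁅x, y⁆ = 1 := by
      rw [← MonoidHom.mem_ker, QuotientGroup.ker_mk']; exact hxy
    rw [map_commutatorElement] at this
    exact commutatorElement_eq_one_iff_commute.1 this
  rw [commutator_def, Subgroup.commutator_le]
  intro u _ v _
  obtain ⟨k, hk, i, rfl⟩ := hgen u
  obtain ⟨k', hk', j, rfl⟩ := hgen v
  have hfin : Commute (φ (k * a ^ i)) (φ (k' * a ^ j)) := by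
    simp only [map_mul, map_pow]
    have c1 : Commute (φ k) (φ k') := hcomm (h2 k hk k' hk')
    have c2 : Commute (φ k) (φ a) := hcomm (h1 k hk)
    have c3 : Commute (φ k') (φ a) := hcomm (h1 k' hk')
    apply Commute.mul_left
    · exact c1.mul_right (c2.pow_right j)
    · exact (c3.pow_right i).symm.mul_right ((Commute.refl (φ a)).pow_pow i j)
  have : φ ⁅k * a ^ i, k' * a ^ j⁆ = 1 := by
    rw [map_commutatorElement]
    exact commutatorElement_eq_one_iff_commute.2 hfin
  rw [← MonoidHom.mem_ker, QuotientGroup.ker_mk'] at this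
  exact this

/-- The conjugacy class bound. -/
theorem index_centralizer_le {R : Type*} [Group R] [Finite R] (b : R) :
    (Subgroup.centralizer ({b} : Set R)).index ≤ Nat.card (commutator R) := by
  classical
  rw [Subgroup.index_eq_card]
  let F : R ⧸ Subgroup.centralizer ({b} : Set R) → commutator R :=
    fun q => ⟨⁅q.out, b⁆, Subgroup.commutator_mem_commutator (Subgroup.mem_top _) (Subgroup.mem_top _)⟩
  apply Nat.card_le_card_of_injective F
  intro q q' h
  have h1 : ⁅q.out, b⁆ = ⁅q'.out, b⁆ := congrArg Subtype.val h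
  have h2 : q'.out⁻¹ * q.out ∈ Subgroup.centralizer ({b} : Set R) := by
    rw [Subgroup.mem_centralizer_singleton_iff]
    simp only [commutatorElement_def] at h1
    have h3 : q.out * b * q.out⁻¹ = q'.out * b * q'.out⁻¹ := by
      have := congrArg (· * b) h1
      simpa using this
    have h4 : q'.out⁻¹ * (q.out * b * q.out⁻¹) * q'.out = b := by
      rw [h3]; group
    calc q'.out⁻¹ * q.out * b = q'.out⁻¹ * (q.out * b * q.out⁻¹) * q'.out * (q'.out⁻¹ * q.out) := by group
      _ = b * (q'.out⁻¹ * q.out) := by rw [h4]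
  have h5 : (q'.out : R ⧸ Subgroup.centralizer ({b} : Set R)) = q.out := by
    rw [QuotientGroup.eq]; exact h2
  simpa using h5.symm


/-- The centralizer of an element outside an abelian normal subgroup of index `p`. -/
theorem card_centralizer {R : Type*} [Group R] [Finite R]
    (hc : (commutator R).index = p ^ 2) (K : Subgroup R) [hKn : K.Normal]
    (hKc : ∀ x ∈ K, ∀ y ∈ K, x * y = y * x) (hK : K.index = p) (b : R) (hb : b ∉ K) :
    Nat.card (Subgroup.centralizer ({b} : Set R)) = p ^ 2 := by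
  classical
  have hgen := gen_of_index K hK b hb
  have hmem : ∀ k ∈ K, k * (b * k⁻¹ * b⁻¹) ∈ K := fun k hk =>
    K.mul_mem hk (hKn.conj_mem _ (K.inv_mem hk) b)
  let f : K →* K := MonoidHom.mk' (fun k => ⟨(k : R) * (b * (k : R)⁻¹ * b⁻¹), hmem k k.2⟩) (by
    intro x y
    apply Subtype.ext
    have h1 := hKc (b * (x : R)⁻¹ * b⁻¹) (hKn.conj_mem _ (K.inv_mem x.2) b) (y : R) y.2
    have h2 : (b * (y : R)⁻¹ * b⁻¹) * (b * (x : R)⁻¹ * b⁻¹) = (b * (x : R)⁻¹ * b⁻¹) * (b * (y : R)⁻¹ * b⁻¹) :=
      hKc _ (hKn.conj_mem _ (K.inv_mem y.2) b) _ (hKn.conj_mem _ (K.inv_mem x.2) b)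
    have e : (x : R) * y * (b * ((x : R) * y)⁻¹ * b⁻¹) =
        x * y * ((b * (y : R)⁻¹ * b⁻¹) * (b * (x : R)⁻¹ * b⁻¹)) := by group
    show (x : R) * y * (b * ((x : R) * y)⁻¹ * b⁻¹) = _
    rw [e, h2]
    show _ = (x : R) * (b * (x : R)⁻¹ * b⁻¹) * ((y : R) * (b * (y : R)⁻¹ * b⁻¹))
    calc (x : R) * y * ((b * (x : R)⁻¹ * b⁻¹) * (b * (y : R)⁻¹ * b⁻¹))
        = x * (y * (b * (x : R)⁻¹ * b⁻¹)) * (b * (y : R)⁻¹ * b⁻¹) := by group
      _ = x * ((b * (x : R)⁻¹ * b⁻¹) * y) * (b * (y : R)⁻¹ * b⁻¹) := by rw [h1]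
      _ = _ := by group)
  have hfk : ∀ k : K, ((f k : K) : R) = (k : R) * (b * (k : R)⁻¹ * b⁻¹) := fun _ => rfl
  let E : Subgroup R := f.range.map K.subtype
  have hEmem : ∀ k : K, (k : R) * (b * (k : R)⁻¹ * b⁻¹) ∈ E := fun k =>
    ⟨f k, ⟨k, rfl⟩, rfl⟩
  have hEK : E ≤ K := Subgroup.map_subtype_le _
  have hEk : ∀ k ∈ K, ∀ e ∈ E, k * e * k⁻¹ ∈ E := by
    intro k hk e he
    have h1 := hKc k hk e (hEK he)
    rw [h1]
    simpa using he
  have hEb : ∀ e ∈ E, b * e * b⁻¹ ∈ E := by
    rintro _ ⟨_, ⟨k, rfl⟩, rfl⟩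
    let k' : K := ⟨b * (k : R) * b⁻¹, hKn.conj_mem _ k.2 b⟩
    have := hEmem k'
    show b * ((k : R) * (b * (k : R)⁻¹ * b⁻¹)) * b⁻¹ ∈ E
    have e : b * ((k : R) * (b * (k : R)⁻¹ * b⁻¹)) * b⁻¹ =
        (k' : R) * (b * (k' : R)⁻¹ * b⁻¹) := by
      show _ = (b * (k : R) * b⁻¹) * (b * (b * (k : R) * b⁻¹)⁻¹ * b⁻¹)
      group
    rw [e]; exact this
  have hEbi : ∀ i : ℕ, ∀ e ∈ E, b ^ i * e * (b ^ i)⁻¹ ∈ E := by
    intro i
    induction i with
    | zero => intro e he; simpa using he
    | succ i ih =>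
      intro e he
      have := hEb _ (ih e he)
      have e2 : b ^ (i + 1) * e * (b ^ (i + 1))⁻¹ = b * (b ^ i * e * (b ^ i)⁻¹) * b⁻¹ := by
        rw [pow_succ']; group
      rw [e2]; exact this
  have hEn : E.Normal := ⟨by
    intro e he g
    obtain ⟨k, hk, i, rfl⟩ := hgen g
    have := hEk k hk _ (hEbi i e he)
    have e2 : k * b ^ i * e * (k * b ^ i)⁻¹ = k * (b ^ i * e * (b ^ i)⁻¹) * k⁻¹ := by group
    rw [e2]; exact this⟩
  have hcE : commutator R ≤ E := by
    apply comm_le_of_gen E K b hgen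
    · intro k hk
      have := hEmem ⟨k, hk⟩
      simpa [commutatorElement_def, mul_assoc] using this
    · intro k hk k' hk'
      rw [commutatorElement_eq_one_iff_commute.2 (hKc k hk k' hk')]
      exact E.one_mem
  -- counting
  have hEcard : Nat.card E = Nat.card f.range :=
    Nat.card_congr (Subgroup.equivMapOfInjective f.range K.subtype K.subtype_injective).symm.toEquiv
  have hker : Nat.card f.ker * Nat.card f.range = Nat.card K := by
    rw [← Subgroup.index_ker f, Subgroup.card_mul_index]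
  have hRK := Subgroup.card_mul_index K
  have hRc := Subgroup.card_mul_index (commutator R)
  rw [hK] at hRK
  rw [hc] at hRc
  have hcle : Nat.card (commutator R) ≤ Nat.card E := Subgroup.card_le_of_le hcE
  have hppos : 0 < p := hp.out.pos
  have hKeq : Nat.card K = Nat.card (commutator R) * p := by
    apply Nat.eq_of_mul_eq_mul_right hppos
    rw [hRK, ← hRc]; ring
  have hrpos : 0 < Nat.card f.range := Nat.card_pos
  have hkerle : Nat.card f.ker ≤ p := by
    have h1 : Nat.card f.ker * Nat.card f.range ≤ p * Nat.card f.range := by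
      rw [hker, hKeq, mul_comm p]
      exact Nat.mul_le_mul_right p (hEcard ▸ hcle)
    exact Nat.le_of_mul_le_mul_right h1 hrpos
  -- the centralizer
  set C := Subgroup.centralizer ({b} : Set R) with hC
  have hCK : Nat.card (K.subgroupOf C) ≤ Nat.card f.ker := by
    let F : K.subgroupOf C → f.ker := fun x => ⟨⟨(x : C), x.2⟩, by
      rw [MonoidHom.mem_ker]
      apply Subtype.ext
      rw [hfk]
      have h1 : ((x : C) : R) * b = b * ((x : C) : R) :=
        Subgroup.mem_centralizer_singleton_iff.1 (x : C).2 ▸ rfl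
      show ((x : C) : R) * (b * ((x : C) : R)⁻¹ * b⁻¹) = 1
      calc ((x : C) : R) * (b * ((x : C) : R)⁻¹ * b⁻¹)
          = (((x : C) : R) * b) * ((x : C) : R)⁻¹ * b⁻¹ := by group
        _ = 1 := by rw [h1]; group⟩
    apply Nat.card_le_card_of_injective F
    intro x y h
    have h2 : ((x : C) : R) = ((y : C) : R) := congrArg (fun z : f.ker => ((z : K) : R)) h
    exact Subtype.ext (Subtype.ext h2)
  have hCidx : (K.subgroupOf C).index ∣ p := by
    have := Subgroup.relIndex_dvd_index_of_normal K C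
    rw [hK] at this
    exact this
  have hCcard : Nat.card C = Nat.card (K.subgroupOf C) * (K.subgroupOf C).index :=
    (Subgroup.card_mul_index _).symm
  have hup : Nat.card C ≤ p ^ 2 := by
    rw [hCcard, pow_two]
    exact Nat.mul_le_mul (hCK.trans hkerle) (Nat.le_of_dvd hppos hCidx)
  have hlow : p ^ 2 ≤ Nat.card C := by
    have h1 := index_centralizer_le b
    have h2 := Subgroup.card_mul_index C
    have hcpos : 0 < Nat.card (commutator R) := Nat.card_pos
    have h3 : Nat.card (commutator R) * p ^ 2 ≤ Nat.card (commutator R) * Nat.card C := by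
      rw [hRc, ← h2, mul_comm]
      exact Nat.mul_le_mul_right _ h1
    exact Nat.le_of_mul_le_mul_left h3 hcpos
  exact le_antisymm hup hlow

/-- Lemma D: the norm argument. -/
theorem comm_le_of_norm {R : Type*} [Group R] [Finite R] (hR : IsPGroup p R)
    (hc : (commutator R).index = p ^ 2) (K : Subgroup R) [hKn : K.Normal]
    (hK : K.index = p) (a : R) (ha : a ∉ K) (D : Subgroup R) (hDK : D ≤ K)
    (hDn : ∀ k ∈ K, ∀ d ∈ D, k * d * k⁻¹ ∈ D)
    (S : Set R) (hS : ∀ k ∈ K, ∃ x ∈ S, x ∈ K ∧ ∃ d ∈ D, k = x * d)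
    (hSa : ∀ x ∈ S, x ∈ K → ∀ i : ℕ, 0 < i → i < p → a ^ i * x * (a ^ i)⁻¹ ∈ D) :
    ∀ k ∈ K, ∀ k' ∈ K, ⁅k, k'⁆ ∈ D := by
  classical
  have hgen := gen_of_index K hK a ha
  let D₀ : Subgroup K := D.subgroupOf K
  haveI hD₀n : D₀.Normal := ⟨by
    intro d hd k
    rw [Subgroup.mem_subgroupOf] at hd ⊢
    exact hDn k k.2 d hd⟩
  let Q := K ⧸ D₀
  let B := Abelianization Q
  let lam : K →* B := Abelianization.of.comp (QuotientGroup.mk' D₀)
  have hlamD : ∀ d : K, (d : R) ∈ D → lam d = 1 := by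
    intro d hd
    have : QuotientGroup.mk' D₀ d = 1 := (QuotientGroup.eq_one_iff d).2 hd
    show Abelianization.of (QuotientGroup.mk' D₀ d) = 1
    rw [this, map_one]
  let c : ℕ → (K →* K) := fun i => (MulAut.conjNormal (a ^ i) : K ≃* K).toMonoidHom
  have hci : ∀ (i : ℕ) (k : K), ((c i k : K) : R) = a ^ i * k * (a ^ i)⁻¹ := fun i k => by
    exact MulAut.conjNormal_apply (a ^ i) k
  let π : K →* B := ∏ i ∈ Finset.range p, lam.comp (c i)
  have hπ : ∀ k : K, π k = ∏ i ∈ Finset.range p, lam (c i k) := by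
    intro k
    simp [π, MonoidHom.finset_prod_apply]
  have hap : a ^ p ∈ K := by
    have hcard : Nat.card (R ⧸ K) = p := by rw [← Subgroup.index_eq_card]; exact hK
    have h1 : ((a ^ p : R) : R ⧸ K) = 1 := by
      rw [QuotientGroup.mk_pow, ← hcard]
      exact pow_card_eq_one'
    exact (QuotientGroup.eq_one_iff _).1 h1
  have hπa : ∀ k : K, π (c 1 k) = π k := by
    intro k
    rw [hπ, hπ]
    let g : ℕ → B := fun i => lam (c i k)
    have h1 : ∀ i, lam (c i (c 1 k)) = g (i + 1) := by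
      intro i
      show lam _ = lam _
      congr 1
      apply Subtype.ext
      rw [hci, hci, hci]
      rw [pow_succ]; group
    have h2 : g p = g 0 := by
      let w : K := ⟨a ^ p, hap⟩
      have e1 : c p k = w * k * w⁻¹ := by
        apply Subtype.ext
        rw [hci]; rfl
      have e2 : c 0 k = k := by
        apply Subtype.ext
        rw [hci]; simp
      show lam _ = lam _
      rw [e1, e2, map_mul, map_mul, map_inv, mul_comm (lam w), mul_inv_cancel_right]
    have h3 := Finset.prod_range_succ g p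
    have h4 := Finset.prod_range_succ' g p
    rw [h3, h2] at h4
    have h5 := mul_right_cancel h4
    simp only [h1]
    exact h5.symm
  let E : Subgroup R := π.ker.map K.subtype
  have hEK : E ≤ K := Subgroup.map_subtype_le _
  have hEmem : ∀ k : K, π k = 1 → (k : R) ∈ E := fun k hk => ⟨k, hk, rfl⟩
  have hEdes : ∀ e ∈ E, ∃ k : K, (k : R) = e ∧ π k = 1 := by
    rintro _ ⟨k, hk, rfl⟩
    exact ⟨k, rfl, hk⟩
  have hEa : ∀ e ∈ E, a * e * a⁻¹ ∈ E := by
    intro e he
    obtain ⟨k, rfl, hk⟩ := hEdes e he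
    have h1 := hEmem (c 1 k) (by rw [hπa]; exact hk)
    rw [hci] at h1
    simpa using h1
  have hEai : ∀ i : ℕ, ∀ e ∈ E, a ^ i * e * (a ^ i)⁻¹ ∈ E := by
    intro i
    induction i with
    | zero => intro e he; simpa using he
    | succ i ih =>
      intro e he
      have := hEa _ (ih e he)
      have e2 : a ^ (i + 1) * e * (a ^ (i + 1))⁻¹ = a * (a ^ i * e * (a ^ i)⁻¹) * a⁻¹ := by
        rw [pow_succ']; group
      rw [e2]; exact this
  have hEk : ∀ k ∈ K, ∀ e ∈ E, k * e * k⁻¹ ∈ E := by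
    intro k hk e he
    obtain ⟨x, rfl, hx⟩ := hEdes e he
    have h1 : π (⟨k, hk⟩ * x * ⟨k, hk⟩⁻¹) = 1 := by
      rw [map_mul, map_mul, map_inv, hx, mul_one, mul_inv_cancel]
    exact hEmem _ h1
  have hEn : E.Normal := ⟨by
    intro e he g
    obtain ⟨k, hk, i, rfl⟩ := hgen g
    have := hEk k hk _ (hEai i e he)
    have e2 : k * a ^ i * e * (k * a ^ i)⁻¹ = k * (a ^ i * e * (a ^ i)⁻¹) * k⁻¹ := by group
    rw [e2]; exact this⟩
  have hcE : commutator R ≤ E := by
    apply comm_le_of_gen E K a hgen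
    · intro k hk
      let x : K := ⟨k, hk⟩
      have h1 : π (x * c 1 x⁻¹) = 1 := by
        rw [map_mul, hπa, map_inv, mul_inv_cancel]
      have h2 := hEmem _ h1
      have e : ((x * c 1 x⁻¹ : K) : R) = ⁅k, a⁆ := by
        show (x : R) * ((c 1 x⁻¹ : K) : R) = _
        rw [hci, commutatorElement_def]
        simp [x, mul_assoc]
      rwa [e] at h2
    · intro k hk k' hk'
      let x : K := ⟨k, hk⟩
      let y : K := ⟨k', hk'⟩
      have h1 : π ⁅x, y⁆ = 1 := by
        rw [map_commutatorElement]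
        exact commutatorElement_eq_one_iff_commute.2 (mul_comm _ _)
      have h2 := hEmem _ h1
      exact h2
  -- surjectivity
  have hsurj : Function.Surjective π := by
    intro β
    obtain ⟨q, rfl⟩ := QuotientGroup.mk_surjective β
    obtain ⟨k₀, rfl⟩ := QuotientGroup.mk_surjective q
    obtain ⟨x, hxS, hxK, d, hd, hk⟩ := hS k₀ k₀.2
    refine ⟨⟨x, hxK⟩, ?_⟩
    rw [hπ, Finset.prod_eq_single 0]
    · have e0 : c 0 ⟨x, hxK⟩ = ⟨x, hxK⟩ := by
        apply Subtype.ext
        rw [hci]; simp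
      rw [e0]
      have hdK : d ∈ K := hDK hd
      have e1 : k₀ = ⟨x, hxK⟩ * ⟨d, hdK⟩ := Subtype.ext hk
      have h1 : lam k₀ = lam ⟨x, hxK⟩ := by
        rw [e1, map_mul, hlamD ⟨d, hdK⟩ hd, mul_one]
      rw [← h1]
      rfl
    · intro i hi hi0
      apply hlamD
      rw [hci]
      exact hSa x hxS hxK i (Nat.pos_of_ne_zero hi0) (Finset.mem_range.1 hi)
    · intro h0
      exact absurd (Finset.mem_range.2 hp.out.pos) h0
  -- the index computation
  have hQp : IsPGroup p Q := by
    have : IsPGroup p K := hR.to_subgroup K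
    exact this.to_quotient D₀
  have hbot : commutator Q = ⊥ := by
    apply comm_of_index_dvd hQp
    have hcK : commutator R ≤ K := hcE.trans hEK
    have h1 : (commutator Q).index = Nat.card B := Subgroup.index_eq_card _
    have h2 : Nat.card B = π.ker.index := by
      rw [Subgroup.index_ker, MonoidHom.range_eq_top.2 hsurj]
      exact Nat.card_congr (Equiv.subtypeUnivEquiv (fun _ => Subgroup.mem_top _)).symm
    rw [h1, h2]
    let C₀ : Subgroup K := (commutator R).subgroupOf K
    have hC₀ker : C₀ ≤ π.ker := by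
      intro x hx
      have h3 : (x : R) ∈ E := hcE hx
      obtain ⟨k, hk1, hk2⟩ := hEdes _ h3
      have : k = x := Subtype.ext hk1
      rw [← this]; exact hk2
    have h4 : π.ker.index ∣ C₀.index := Subgroup.index_dvd_of_le hC₀ker
    have h5 : C₀.index = p := by
      have h6 := Subgroup.card_mul_index C₀
      have h7 : Nat.card C₀ = Nat.card (commutator R) :=
        Nat.card_congr (Subgroup.subgroupOfEquivOfLe hcK).toEquiv
      have hRK := Subgroup.card_mul_index K
      have hRc := Subgroup.card_mul_index (commutator R)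
      rw [hK] at hRK
      rw [hc] at hRc
      rw [h7] at h6
      have hcpos : 0 < Nat.card (commutator R) := Nat.card_pos
      apply Nat.eq_of_mul_eq_mul_left hcpos
      rw [h6]
      apply Nat.eq_of_mul_eq_mul_right hp.out.pos
      calc Nat.card K * p = Nat.card R := hRK
        _ = Nat.card (commutator R) * p ^ 2 := hRc.symm
        _ = _ := by ring
    rwa [h5] at h4
  intro k hk k' hk'
  let x : K := ⟨k, hk⟩
  let y : K := ⟨k', hk'⟩
  have h1 : ⁅(x : Q), (y : Q)⁆ ∈ commutator Q :=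
    Subgroup.commutator_mem_commutator (Subgroup.mem_top _) (Subgroup.mem_top _)
  rw [hbot, Subgroup.mem_bot] at h1
  have h2 : ((⁅x, y⁆ : K) : Q) = 1 := by
    have : ((⁅x, y⁆ : K) : Q) = QuotientGroup.mk' D₀ ⁅x, y⁆ := rfl
    rw [this, map_commutatorElement]
    exact h1
  have h3 := (QuotientGroup.eq_one_iff _).1 h2
  rw [Subgroup.mem_subgroupOf] at h3
  simpa [x, y, commutatorElement_def] using h3

end Cfsg.Agent.Lib.AbelPSq
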