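import Mathlib

/-!
# Abelian permutation groups: orbit structure and the bounds on their orders.
-/

set_option autoImplicit false
set_option linter.unusedSectionVars false

namespace Cfsg.Agent.Lib.AbelianPerm

open Equiv MulAction

/-- The maximal product of parts of a partition of `n`. -/
def f : ℕ → ℕ
  | 0 => 1
  | 1 => 1
  | 2 => 2
  | 3 => 3
  | 4 => 4
  | (n + 5) => 3 * f (n + 2)

lemma f_add_three (n : ℕ) (h : 2 ≤ n) : f (n + 3) = 3 * f n := by
  obtain ⟨m, rfl⟩ : ∃ m, n = m + 2 := ⟨n - 2, by omega⟩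
  show f (m + 5) = _
  rw [f]

lemma f_zero_three : f 3 = 3 * f 0 := rfl

lemma three_mul_le (n : ℕ) : 3 * f n ≤ f (n + 3) := by
  match n with
  | 0 => decide
  | 1 => decide
  | (m + 2) => rw [f_add_three _ (by omega)]

lemma f_pos (n : ℕ) : 0 < f n := by
  induction n using Nat.strong_induction_on with
  | _ n ih =>
    match n with
    | 0 => decide
    | 1 => decide
    | 2 => decide
    | 3 => decide
    | 4 => decide
    | (m + 5) =>
      rw [f]
      have := ih (m + 2) (by omega)
      omega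

/-- Small parts. -/
lemma small_mul_le (a : ℕ) (ha1 : 1 ≤ a) (ha : a ≤ 4) (m : ℕ) : a * f m ≤ f (m + a) := by
  induction m using Nat.strong_induction_on with
  | _ m ih =>
    match m with
    | 0 => interval_cases a <;> decide
    | 1 => interval_cases a <;> decide
    | 2 => interval_cases a <;> decide
    | 3 => interval_cases a <;> decide
    | 4 => interval_cases a <;> decide
    | (r + 5) =>
      have h1 := ih (r + 2) (by omega)
      have h2 : f (r + 5) = 3 * f (r + 2) := by rw [f]
      have h3 : f (r + 5 + a) = 3 * f (r + 2 + a) := by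
        rw [show r + 5 + a = (r + 2 + a) + 3 by ring, f_add_three _ (by omega)]
      rw [h2, h3]
      nlinarith

/-- Supermultiplicativity. -/
lemma mul_le_add (a : ℕ) (ha1 : 1 ≤ a) (m : ℕ) : a * f m ≤ f (m + a) := by
  induction a using Nat.strong_induction_on with
  | _ a ih =>
    by_cases ha : a ≤ 4
    · exact small_mul_le a ha1 ha m
    · have h1 := ih (a - 3) (by omega) (by omega)
      have h2 : m + a = (m + (a - 3)) + 3 := by omega
      rw [h2, f_add_three _ (by omega)]
      have h3 : a ≤ 3 * (a - 3) := by omega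
      calc a * f m ≤ (3 * (a - 3)) * f m := Nat.mul_le_mul_right _ h3
        _ = 3 * ((a - 3) * f m) := by ring
        _ ≤ 3 * f (m + (a - 3)) := Nat.mul_le_mul_left _ h1

lemma prod_le_f {ι : Type*} (s : Finset ι) (a : ι → ℕ) (h : ∀ i ∈ s, 1 ≤ a i) :
    ∏ i ∈ s, a i ≤ f (∑ i ∈ s, a i) := by
  classical
  induction s using Finset.induction_on with
  | empty => simp [f]
  | insert i s hi ih =>
    rw [Finset.prod_insert hi, Finset.sum_insert hi]
    have h1 := ih (fun j hj => h j (Finset.mem_insert_of_mem hj))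
    have h2 := mul_le_add (a i) (h i (Finset.mem_insert_self _ _)) (∑ j ∈ s, a j)
    calc a i * ∏ j ∈ s, a j ≤ a i * f (∑ j ∈ s, a j) := Nat.mul_le_mul_left _ h1
      _ ≤ f (∑ j ∈ s, a j + a i) := h2
      _ = f (a i + ∑ j ∈ s, a j) := by rw [add_comm]

lemma f_three_mul (k : ℕ) : f (3 * k) = 3 ^ k := by
  induction k with
  | zero => rfl
  | succ k ih =>
    cases k with
    | zero => rfl
    | succ k =>
      rw [show 3 * (k + 1 + 1) = 3 * (k + 1) + 3 by ring, f_add_three _ (by omega), ih]
      ring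

lemma f_three_mul_one (k : ℕ) : f (3 * (k + 1) + 1) = 4 * 3 ^ k := by
  induction k with
  | zero => rfl
  | succ k ih =>
    rw [show 3 * (k + 1 + 1) + 1 = (3 * (k + 1) + 1) + 3 by ring, f_add_three _ (by omega), ih]
    ring

lemma f_three_mul_two (k : ℕ) : f (3 * k + 2) = 2 * 3 ^ k := by
  induction k with
  | zero => rfl
  | succ k ih =>
    rw [show 3 * (k + 1) + 2 = (3 * k + 2) + 3 by ring, f_add_three _ (by omega), ih]
    ring

/-- Bound for a single part different from `2`, `3`, in degree `3 k + 2`. -/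
lemma part_bound (k : ℕ) (a : ℕ) (ha1 : 1 ≤ a) (ha2 : a ≠ 2) (ha3 : a ≠ 3) (han : a ≤ 3 * (k + 2) + 2) :
    a * f (3 * (k + 2) + 2 - a) ≤ 16 * 3 ^ k := by
  induction a using Nat.strong_induction_on with
  | _ a ih =>
    match a, ha1, ha2, ha3, han, ih with
    | 1, _, _, _, _, _ =>
      rw [show 3 * (k + 2) + 2 - 1 = 3 * (k + 1 + 1) + 1 by omega, f_three_mul_one, pow_succ]
      omega
    | 4, _, _, _, _, _ =>
      rw [show 3 * (k + 2) + 2 - 4 = 3 * (k + 1) + 1 by omega, f_three_mul_one]
      omega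
    | 5, _, _, _, _, _ =>
      rw [show 3 * (k + 2) + 2 - 5 = 3 * (k + 1) by omega, f_three_mul, pow_succ]
      omega
    | 6, _, _, _, _, _ =>
      rw [show 3 * (k + 2) + 2 - 6 = 3 * k + 2 by omega, f_three_mul_two]
      omega
    | (b + 7), _, _, _, han, ih =>
      have h1 := ih (b + 4) (by omega) (by omega) (by omega) (by omega) (by omega)
      rw [show 3 * (k + 2) + 2 - (b + 4) = (3 * (k + 2) + 2 - (b + 7)) + 3 by omega] at h1
      have h2 := three_mul_le (3 * (k + 2) + 2 - (b + 7))
      have h3 : b + 7 ≤ 3 * (b + 4) := by omega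
      calc (b + 7) * f (3 * (k + 2) + 2 - (b + 7))
          ≤ (3 * (b + 4)) * f (3 * (k + 2) + 2 - (b + 7)) := Nat.mul_le_mul_right _ h3
        _ = (b + 4) * (3 * f (3 * (k + 2) + 2 - (b + 7))) := by ring
        _ ≤ (b + 4) * f (3 * (k + 2) + 2 - (b + 7) + 3) := Nat.mul_le_mul_left _ h2
        _ ≤ _ := h1

section orbits

variable {G α : Type*} [Group G] [MulAction G α] [Finite α]

/-- The orbit space. -/
abbrev Om (G α : Type*) [Group G] [MulAction G α] := orbitRel.Quotient G α

/-- The size of an orbit. -/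
noncomputable def sz (ω : Om G α) : ℕ := Nat.card ω.orbit

lemma sz_pos (ω : Om G α) : 1 ≤ sz ω := by
  have h : ω.orbit.Nonempty := orbitRel.Quotient.nonempty_orbit ω
  obtain ⟨x, hx⟩ := h
  have : Nonempty ω.orbit := ⟨⟨x, hx⟩⟩
  exact Nat.card_pos

lemma sum_sz [Fintype (Om G α)] : ∑ ω : Om G α, sz ω = Nat.card α := by
  classical
  have e := MulAction.selfEquivSigmaOrbits G α
  rw [Nat.card_congr e, Nat.card_sigma]
  apply Finset.sum_congr rfl
  intro ω _
  unfold sz
  rw [orbitRel.Quotient.orbit_eq_orbit_out ω Quotient.out_eq']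

lemma card_le_prod [FaithfulSMul G α] [Finite G] [Fintype (Om G α)] (hcomm : ∀ a b : G, a * b = b * a) :
    Nat.card G ≤ ∏ ω : Om G α, sz ω := by
  classical
  have hmem : ∀ (g : G) (ω : Om G α), g • (Quotient.out ω) ∈ ω.orbit := by
    intro g ω
    rw [orbitRel.Quotient.orbit_eq_orbit_out ω Quotient.out_eq']
    exact ⟨g, rfl⟩
  let F : G → (∀ ω : Om G α, ω.orbit) := fun g ω => ⟨g • (Quotient.out ω), hmem g ω⟩
  have hinj : Function.Injective F := by
    intro g h hgh
    apply FaithfulSMul.eq_of_smul_eq_smul (α := α)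
    intro x
    obtain ⟨ω, hx⟩ : ∃ ω : Om G α, x ∈ orbitRel.Quotient.orbit ω :=
      ⟨Quotient.mk'' x, mem_orbit_self x⟩
    rw [orbitRel.Quotient.orbit_eq_orbit_out ω Quotient.out_eq'] at hx
    obtain ⟨c, rfl⟩ := hx
    have h1 : g • (Quotient.out ω) = h • (Quotient.out ω) :=
      congrArg Subtype.val (congrFun hgh ω)
    show g • (c • Quotient.out ω) = h • (c • Quotient.out ω)
    rw [smul_smul, smul_smul, hcomm g c, hcomm h c, mul_smul, mul_smul, h1]
  have h1 := Nat.card_le_card_of_injective F hinj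
  rwa [Nat.card_pi] at h1

/-- Main upper bound for abelian groups. -/
theorem card_le_f [FaithfulSMul G α] [Finite G] (hcomm : ∀ a b : G, a * b = b * a) :
    Nat.card G ≤ f (Nat.card α) := by
  classical
  letI : Fintype (Om G α) := Fintype.ofFinite _
  calc Nat.card G ≤ ∏ ω : Om G α, sz ω := card_le_prod hcomm
    _ ≤ f (∑ ω : Om G α, sz ω) := prod_le_f _ _ (fun ω _ => sz_pos ω)
    _ = f (Nat.card α) := by rw [sum_sz]

lemma pow_sz_smul (hcomm : ∀ a b : G, a * b = b * a) (g : G) (z : α) :
    g ^ sz (Quotient.mk'' z : Om G α) • z = z := by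
  haveI : (stabilizer G z).Normal := ⟨fun n hn c => by
    rw [hcomm c n, mul_inv_cancel_right]; exact hn⟩
  have h1 := Subgroup.pow_index_mem (stabilizer G z) g
  rw [MulAction.index_stabilizer, ← Nat.card_coe_set_eq] at h1
  exact h1

/-- Sign obstruction. -/
theorem no_single_two [DecidableEq α] [Fintype α] [Fintype (Om G α)] (hcomm : ∀ a b : G, a * b = b * a)
    (hsign : ∀ g : G, Perm.sign (MulAction.toPermHom G α g) = 1)
    (ω₀ : Om G α) (h2 : sz ω₀ = 2) (h3 : ∀ ω, ω ≠ ω₀ → sz ω = 3) : False := by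
  obtain ⟨p, q, hpq, -⟩ := Nat.card_eq_two_iff.1 h2
  obtain ⟨x, hx⟩ := p
  obtain ⟨y, hy⟩ := q
  have hxy : x ≠ y := fun h => hpq (Subtype.ext h)
  have hxω : (Quotient.mk'' x : Om G α) = ω₀ := orbitRel.Quotient.mem_orbit.1 hx
  have hyω : (Quotient.mk'' y : Om G α) = ω₀ := orbitRel.Quotient.mem_orbit.1 hy
  have hy' : y ∈ orbit G x := by
    have : y ∈ orbitRel.Quotient.orbit (Quotient.mk'' x : Om G α) := by rw [hxω]; exact hy
    rwa [orbitRel.Quotient.orbit_mk] at this
  obtain ⟨g, hg⟩ := hy'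
  have hg' : g • x = y := hg
  have hgx : g ^ 2 • x = x := by
    have := pow_sz_smul hcomm g x
    rwa [hxω, h2] at this
  have hgy : g ^ 2 • y = y := by
    have := pow_sz_smul hcomm g y
    rwa [hyω, h2] at this
  have hgy2 : g • y = x := by
    rw [← hg', ← mul_smul, ← pow_two, hgx]
  have hkey : MulAction.toPermHom G α (g ^ 3) = swap x y := by
    ext z
    show g ^ 3 • z = swap x y z
    have h3' : ∀ w : α, g ^ 3 • w = g • (g ^ 2 • w) := by
      intro w
      rw [← mul_smul, pow_succ' g 2]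
    by_cases hzx : z = x
    · rw [hzx, h3', hgx, hg', swap_apply_left]
    by_cases hzy : z = y
    · rw [hzy, h3', hgy, hgy2, swap_apply_right]
    · rw [swap_apply_of_ne_of_ne hzx hzy]
      by_cases hzω : (Quotient.mk'' z : Om G α) = ω₀
      · exfalso
        have hz : z ∈ ω₀.orbit := orbitRel.Quotient.mem_orbit.2 hzω
        have h4 : Nat.card ω₀.orbit = 2 := h2
        have : (⟨z, hz⟩ : ω₀.orbit) = ⟨x, hx⟩ ∨ (⟨z, hz⟩ : ω₀.orbit) = ⟨y, hy⟩ := by
          obtain ⟨p', q', hpq', huniv⟩ := Nat.card_eq_two_iff.1 h4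
          have hall : ∀ w : ω₀.orbit, w = p' ∨ w = q' := by
            intro w
            have : w ∈ ({p', q'} : Set ω₀.orbit) := by rw [huniv]; trivial
            simpa using this
          rcases hall ⟨z, hz⟩ with h5 | h5 <;> rcases hall ⟨x, hx⟩ with h6 | h6 <;>
            rcases hall ⟨y, hy⟩ with h7 | h7
          · exact Or.inl (h5.trans h6.symm)
          · exact Or.inl (h5.trans h6.symm)
          · exact Or.inr (h5.trans h7.symm)
          · exact absurd (congrArg Subtype.val (h6.trans h7.symm)) hxy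
          · exact absurd (congrArg Subtype.val (h6.trans h7.symm)) hxy
          · exact Or.inr (h5.trans h7.symm)
          · exact Or.inl (h5.trans h6.symm)
          · exact Or.inl (h5.trans h6.symm)
        rcases this with h5 | h5
        · exact hzx (congrArg Subtype.val h5)
        · exact hzy (congrArg Subtype.val h5)
      · have := pow_sz_smul hcomm g z
        rwa [h3 _ hzω] at this
  have h5 := hsign (g ^ 3)
  rw [hkey, Perm.sign_swap hxy] at h5
  exact absurd h5 (by decide)

/-- Upper bound for groups of even permutations, in degree `3 k + 2`, `k ≥ 2`. -/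
theorem card_le_even [DecidableEq α] [Fintype α] [FaithfulSMul G α] [Finite G] (hcomm : ∀ a b : G, a * b = b * a)
    (hsign : ∀ g : G, Perm.sign (MulAction.toPermHom G α g) = 1)
    (k : ℕ) (hα : Nat.card α = 3 * (k + 2) + 2) :
    Nat.card G ≤ 16 * 3 ^ k := by
  classical
  letI : Fintype (Om G α) := Fintype.ofFinite _
  have hP := card_le_prod (G := G) (α := α) hcomm
  have hsum := sum_sz (G := G) (α := α)
  rw [hα] at hsum
  refine hP.trans ?_
  by_cases hcase : ∃ ω : Om G α, sz ω ≠ 2 ∧ sz ω ≠ 3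
  · obtain ⟨ω, h2, h3⟩ := hcase
    have h1 : ∏ ω' : Om G α, sz ω' = sz ω * ∏ ω' ∈ Finset.univ.erase ω, sz ω' :=
      (Finset.mul_prod_erase _ _ (Finset.mem_univ ω)).symm
    have h4 : sz ω + ∑ ω' ∈ Finset.univ.erase ω, sz ω' = 3 * (k + 2) + 2 := by
      rw [Finset.add_sum_erase _ _ (Finset.mem_univ ω), hsum]
    have h5 : ∑ ω' ∈ Finset.univ.erase ω, sz ω' = 3 * (k + 2) + 2 - sz ω := by omega
    have h6 := prod_le_f (Finset.univ.erase ω) (sz (G := G) (α := α)) (fun ω' _ => sz_pos ω')
    rw [h5] at h6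
    rw [h1]
    calc sz ω * ∏ ω' ∈ Finset.univ.erase ω, sz ω'
        ≤ sz ω * f (3 * (k + 2) + 2 - sz ω) := Nat.mul_le_mul_left _ h6
      _ ≤ _ := part_bound k _ (sz_pos ω) h2 h3 (by omega)
  · push Not at hcase
    -- all parts are `2` or `3`
    have hall : ∀ ω : Om G α, sz ω = 2 ∨ sz ω = 3 := by
      intro ω
      by_cases h : sz ω = 2
      · exact Or.inl h
      · exact Or.inr (hcase ω h)
    let T : Finset (Om G α) := Finset.univ.filter (fun ω => sz ω = 2)
    let S : Finset (Om G α) := Finset.univ.filter (fun ω => ¬ sz ω = 2)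
    have hsum2 : ∑ ω : Om G α, sz ω = 2 * T.card + 3 * S.card := by
      rw [← Finset.sum_filter_add_sum_filter_not Finset.univ (fun ω : Om G α => sz ω = 2)]
      congr 1
      · rw [Finset.sum_congr rfl (g := fun _ => 2)]
        · simp [T, mul_comm]
        · intro ω hω
          exact (Finset.mem_filter.mp hω).2
      · rw [Finset.sum_congr rfl (g := fun _ => 3)]
        · simp [S, mul_comm]
        · intro ω hω
          exact (hall ω).resolve_left (Finset.mem_filter.mp hω).2
    have hprod2 : ∏ ω : Om G α, sz ω = 2 ^ T.card * 3 ^ S.card := by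
      rw [← Finset.prod_filter_mul_prod_filter_not Finset.univ (fun ω : Om G α => sz ω = 2)]
      congr 1
      · rw [Finset.prod_congr rfl (g := fun _ => 2)]
        · simp [T]
        · intro ω hω
          exact (Finset.mem_filter.mp hω).2
      · rw [Finset.prod_congr rfl (g := fun _ => 3)]
        · simp [S]
        · intro ω hω
          exact (hall ω).resolve_left (Finset.mem_filter.mp hω).2
    rw [hsum] at hsum2
    rw [hprod2]
    have ht : T.card = 1 ∨ ∃ v, T.card = 3 * v + 4 := by
      have h7 : T.card % 3 = 1 := by omega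
      by_cases h8 : T.card = 1
      · exact Or.inl h8
      · right
        exact ⟨(T.card - 4) / 3, by omega⟩
    rcases ht with h8 | ⟨v, hv⟩
    · exfalso
      obtain ⟨ω₀, hω₀⟩ := Finset.card_eq_one.1 h8
      refine no_single_two hcomm hsign ω₀ ?_ ?_
      · have : ω₀ ∈ T := by rw [hω₀]; simp
        exact (Finset.mem_filter.mp this).2
      · intro ω hne
        apply (hall ω).resolve_left
        intro h2
        have : ω ∈ T := Finset.mem_filter.mpr ⟨Finset.mem_univ _, h2⟩
        rw [hω₀] at this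
        exact hne (Finset.mem_singleton.mp this)
    · have hs : k = S.card + 2 * v := by omega
      rw [hv, hs, show 2 ^ (3 * v + 4) = 16 * 8 ^ v by rw [pow_add, pow_mul]; norm_num; ring,
        pow_add 3 S.card, show 3 ^ (2 * v) = 9 ^ v by rw [pow_mul]; norm_num]
      have h9 : 8 ^ v ≤ 9 ^ v := Nat.pow_le_pow_left (by norm_num) v
      calc 16 * 8 ^ v * 3 ^ S.card ≤ 16 * 9 ^ v * 3 ^ S.card := by
            apply Nat.mul_le_mul_right
            apply Nat.mul_le_mul_left
            exact h9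
        _ = _ := by ring

end orbits

section constructions

/-- Realizable orders of abelian subgroups of the symmetric group. -/
def RealS (n c : ℕ) : Prop :=
  ∃ A : Subgroup (Perm (Fin n)), (∀ a ∈ A, ∀ b ∈ A, a * b = b * a) ∧ Nat.card A = c

/-- Realizable orders of abelian subgroups of even permutations. -/
def RealA (n c : ℕ) : Prop :=
  ∃ A : Subgroup (Perm (Fin n)), (∀ a ∈ A, ∀ b ∈ A, a * b = b * a) ∧ Nat.card A = c ∧
    A ≤ alternatingGroup (Fin n)

lemma RealA.toS {n c : ℕ} (h : RealA n c) : RealS n c := by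
  obtain ⟨A, h1, h2, -⟩ := h
  exact ⟨A, h1, h2⟩

/-- Disjoint union of permutation actions. -/
def glue (n m : ℕ) : Perm (Fin n) × Perm (Fin m) →* Perm (Fin (n + m)) :=
  (finSumFinEquiv.permCongrHom.toMonoidHom).comp (Perm.sumCongrHom _ _)

lemma glue_injective (n m : ℕ) : Function.Injective (glue n m) := by
  intro x y h
  apply Perm.sumCongrHom_injective
  exact finSumFinEquiv.permCongrHom.injective h

lemma sign_glue (n m : ℕ) (x : Perm (Fin n) × Perm (Fin m)) :
    Perm.sign (glue n m x) = Perm.sign x.1 * Perm.sign x.2 := by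
  show Perm.sign (finSumFinEquiv.permCongrHom (Perm.sumCongrHom _ _ x)) = _
  rw [Equiv.permCongrHom_coe, Perm.sign_permCongr]
  show Perm.sign (Perm.sumCongr x.1 x.2) = _
  rw [Perm.sign_sumCongr]

lemma glue_card {n m : ℕ} (A : Subgroup (Perm (Fin n))) (B : Subgroup (Perm (Fin m))) :
    Nat.card ((A.prod B).map (glue n m)) = Nat.card A * Nat.card B := by
  rw [Nat.card_congr (Subgroup.equivMapOfInjective _ _ (glue_injective n m)).symm.toEquiv,
    Nat.card_congr (Subgroup.prodEquiv A B).toEquiv, Nat.card_prod]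

lemma glue_comm {n m : ℕ} {A : Subgroup (Perm (Fin n))} {B : Subgroup (Perm (Fin m))}
    (hA : ∀ a ∈ A, ∀ b ∈ A, a * b = b * a) (hB : ∀ a ∈ B, ∀ b ∈ B, a * b = b * a) :
    ∀ a ∈ (A.prod B).map (glue n m), ∀ b ∈ (A.prod B).map (glue n m), a * b = b * a := by
  rintro _ ⟨x, hx, rfl⟩ _ ⟨y, hy, rfl⟩
  rw [← map_mul, ← map_mul]
  congr 1
  exact Prod.ext (hA _ hx.1 _ hy.1) (hB _ hx.2 _ hy.2)

lemma RealA.add {n m c d : ℕ} (h1 : RealA n c) (h2 : RealA m d) : RealA (n + m) (c * d) := by
  obtain ⟨A, hA, hA2, hA3⟩ := h1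
  obtain ⟨B, hB, hB2, hB3⟩ := h2
  refine ⟨(A.prod B).map (glue n m), glue_comm hA hB, by rw [glue_card, hA2, hB2], ?_⟩
  rintro _ ⟨x, hx, rfl⟩
  rw [Perm.mem_alternatingGroup, sign_glue, Perm.mem_alternatingGroup.1 (hA3 hx.1),
    Perm.mem_alternatingGroup.1 (hB3 hx.2), one_mul]

lemma RealS.add {n m c d : ℕ} (h1 : RealS n c) (h2 : RealS m d) : RealS (n + m) (c * d) := by
  obtain ⟨A, hA, hA2⟩ := h1
  obtain ⟨B, hB, hB2⟩ := h2
  exact ⟨(A.prod B).map (glue n m), glue_comm hA hB, by rw [glue_card, hA2, hB2]⟩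

/-- From a finset. -/
lemma realA_of_finset {n : ℕ} (S : Finset (Perm (Fin n))) (h1 : (1 : Perm (Fin n)) ∈ S)
    (hmul : ∀ x ∈ S, ∀ y ∈ S, x * y ∈ S) (hinv : ∀ x ∈ S, x⁻¹ ∈ S)
    (hcomm : ∀ x ∈ S, ∀ y ∈ S, x * y = y * x) (heven : ∀ x ∈ S, Perm.sign x = 1) :
    RealA n S.card := by
  let A : Subgroup (Perm (Fin n)) :=
    { carrier := ↑S
      mul_mem' := fun {a b} ha hb => hmul a ha b hb
      one_mem' := h1
      inv_mem' := fun {a} ha => hinv a ha }
  refine ⟨A, hcomm, ?_, ?_⟩
  · show Nat.card (↑S : Set (Perm (Fin n))) = _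
    rw [Nat.card_coe_set_eq, Set.ncard_coe_finset]
  · intro x hx
    exact Perm.mem_alternatingGroup.2 (heven x hx)

lemma realA_zero : RealA 0 1 := ⟨⊥, by
  intro a ha b hb
  rw [Subgroup.mem_bot.1 ha, Subgroup.mem_bot.1 hb], by simp, bot_le⟩

set_option maxRecDepth 10000 in
lemma realA_three : RealA 3 3 := by
  have := realA_of_finset (n := 3) {1, finRotate 3, finRotate 3 * finRotate 3}
    (by decide) (by decide) (by decide) (by decide) (by decide)
  have h2 : ({1, finRotate 3, finRotate 3 * finRotate 3} : Finset (Perm (Fin 3))).card = 3 := by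
    decide
  rwa [h2] at this

set_option maxRecDepth 10000 in
lemma realA_four : RealA 4 4 := by
  have := realA_of_finset (n := 4)
    {1, swap 0 1 * swap 2 3, swap 0 2 * swap 1 3, swap 0 3 * swap 1 2}
    (by decide) (by decide) (by decide) (by decide) (by decide)
  have h2 : ({1, swap 0 1 * swap 2 3, swap 0 2 * swap 1 3, swap 0 3 * swap 1 2} :
      Finset (Perm (Fin 4))).card = 4 := by
    decide
  rwa [h2] at this

lemma realS_two : RealS 2 2 := by
  refine ⟨⊤, ?_, ?_⟩
  · have : ∀ a b : Perm (Fin 2), a * b = b * a := by decide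
    exact fun a _ b _ => this a b
  · simp [Nat.card_eq_fintype_card, Fintype.card_perm]

lemma realA_three_mul (k : ℕ) : RealA (3 * k) (3 ^ k) := by
  induction k with
  | zero => exact realA_zero
  | succ k ih =>
    have := ih.add realA_three
    rwa [show 3 * k + 3 = 3 * (k + 1) by ring, show 3 ^ k * 3 = 3 ^ (k + 1) by ring] at this

lemma realA_three_mul_four (k : ℕ) : RealA (3 * k + 4) (3 ^ k * 4) :=
  (realA_three_mul k).add realA_four

lemma realA_three_mul_eight (k : ℕ) : RealA (3 * k + 4 + 4) (3 ^ k * 4 * 4) :=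
  (realA_three_mul_four k).add realA_four

lemma realS_three_mul_two (k : ℕ) : RealS (3 * k + 2) (3 ^ k * 2) :=
  (realA_three_mul k).toS.add realS_two

end constructions

/-- Cast to a `Fin` with a propositionally equal size. -/
lemma RealS.cast {n n' c c' : ℕ} (h : RealS n c) (hn : n = n') (hc : c = c') : RealS n' c' := by
  subst hn; subst hc; exact h

lemma RealA.cast {n n' c c' : ℕ} (h : RealA n c) (hn : n = n') (hc : c = c') : RealA n' c' := by
  subst hn; subst hc; exact h

/-- Upper bound in `Sym(n)`. -/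
theorem card_le_f_subgroup {n : ℕ} (A : Subgroup (Perm (Fin n))) (hA : IsMulCommutative A) :
    Nat.card A ≤ f n := by
  have h := card_le_f (G := A) (α := Fin n) (fun a b => mul_comm' a b)
  simpa using h

end Cfsg.Agent.Lib.AbelianPerm
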