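import Mathlib

set_option autoImplicit false

namespace Cfsg.Agent.Lib.AffineTriple

variable {p : ℕ} [Fact p.Prime] {V : Type*} [AddCommGroup V] [Module (ZMod p) V]

/-- A map fixing `0` that agrees on every triple of points with an affine map is linear,
over a prime field of odd characteristic. -/
theorem exists_linear (hp : p ≠ 2) (σ : V → V) (h0 : σ 0 = 0)
    (h : ∀ x y z : V, ∃ (A : V →ₗ[ZMod p] V) (b : V),
      σ x = A x + b ∧ σ y = A y + b ∧ σ z = A z + b) :
    ∃ L : V →ₗ[ZMod p] V, ∀ x, σ x = L x := by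
  have hsmul : ∀ (k : ZMod p) (x : V), σ (k • x) = k • σ x := by
    intro k x
    obtain ⟨A, b, h1, h2, h3⟩ := h 0 x (k • x)
    rw [h0] at h1
    simp only [map_zero, zero_add] at h1
    rw [h3, h2, ← h1]
    simp
  have two_ne : (2 : ZMod p) ≠ 0 := by
    intro h2
    have : ((2 : ℕ) : ZMod p) = 0 := by exact_mod_cast h2
    rw [ZMod.natCast_eq_zero_iff] at this
    exact hp ((Nat.prime_dvd_prime_iff_eq (Fact.out) Nat.prime_two).mp this)
  have hadd : ∀ x y : V, σ (x + y) = σ x + σ y := by
    intro x y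
    set m : V := (2 : ZMod p)⁻¹ • (x + y) with hm
    obtain ⟨A, b, h1, h2, h3⟩ := h x y m
    have e1 : x + y = (2 : ZMod p) • m := by
      rw [hm, smul_smul, mul_inv_cancel₀ two_ne, one_smul]
    have e2 : (2 : ZMod p) • σ m = σ x + σ y := by
      rw [h3, h1, h2, smul_add, ← map_smul, ← e1, map_add, two_smul]
      abel
    rw [e1, hsmul, e2]
  exact ⟨{ toFun := σ, map_add' := hadd, map_smul' := fun k x => by simp [hsmul] }, fun x => rfl⟩

end Cfsg.Agent.Lib.AffineTriple
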