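import Mathlib

/-!
# An algebraic system with integer degrees
-/

set_option autoImplicit false

namespace Cfsg.Agent.Lib.Alg648

/-- The core computation in the variables `p, q, ζ, w`. -/
theorem core1 (b c e κ p q ζ w : ℂ) (hκ : κ ≠ 0) (hf : c + e ≠ 0) (hg : b + c + e ≠ 0) (he : e ≠ 0)
    (hg1 : 1 + (b + c + e) ≠ 0)
    (W1 : (c + e) * w ^ 2 = 8 / 3 * κ * b * (b + c + e))
    (Z1 : (c + e) * ζ ^ 2 = 2 / 3 * κ * c * e)
    (A4 : (c + e) * ((b + c) * p ^ 2 + 2 * p * w) + 8 / 3 * κ * (b + c + e) * (1 + c) =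
      8 / 3 * κ * (1 + b + c) * (c + e))
    (A7 : (c + e) * ((e + (b + c + e)) * p ^ 2 + 2 * p * w) + 8 / 3 * κ * b * (1 + e) =
      4 / 3 * κ * (1 + e + (b + c + e)) * (c + e))
    (B4 : (c + e) * ((b + c) * q ^ 2 + 2 * q * ζ) + 2 / 3 * κ * (1 + b) * e =
      4 / 3 * κ * (1 + b + c) * (c + e))
    (B7 : (c + e) * ((e + (b + c + e)) * q ^ 2 - 2 * q * ζ) + 2 / 3 * κ * (1 + (b + c + e)) * c =
      κ * (1 + e + (b + c + e)) * (c + e))
    (C4 : (b + c) * p * q + w * q + p * ζ - w * ζ = 4 / 3 * κ * (1 + b + c))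
    (C7 : (e + (b + c + e)) * p * q - p * ζ + w * q + w * ζ = 2 / 3 * κ * (1 + e + (b + c + e))) :
    b = 2 * e - 1 - c ∧ (2 * c - e + 1) * e = 4 * c ∧
      (3 * c * (3 * e - 1) + 2 * (1 - e) * (c + e)) ^ 2 = 16 * c * (c + e) * (3 * e - 1) := by
  -- (i)
  have h1 : 2 * (b + c + e) * q ^ 2 =
      κ * (2 / 3 * (1 + b + c) + (1 + e + (b + c + e))) := by
    apply mul_left_cancel₀ hf
    linear_combination B4 + B7
  -- (ii)
  have h2 : 2 * e * (c + e) * p ^ 2 =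
      κ * (4 / 3 * (1 + e + (b + c + e)) * (c + e) - 16 / 3 * b * e) := by
    linear_combination A7 - A4
  set x8 := (b + c + e) * p + w with hx8
  -- (iii)
  have h3 : x8 ^ 2 = 2 / 3 * κ * (b + c + e) * (1 + e + (b + c + e)) := by
    apply mul_left_cancel₀ hf
    rw [hx8]
    linear_combination (b + c + e) * A7 - ((b + c + e) / 2) * h2 + W1
  -- (iv)
  have h4 : q * x8 = κ * (2 * (1 + b + c) + (1 + e + (b + c + e))) / 3 := by
    rw [hx8]
    linear_combination (C4 + C7) / 2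
  -- (v)
  have h5 : (2 * (1 + b + c) - (1 + e + (b + c + e))) * ((1 + b + c) + (1 + e + (b + c + e))) = 0 := by
    have hk : κ ^ 2 * (b + c + e) ≠ 0 := mul_ne_zero (pow_ne_zero _ hκ) hg
    apply mul_left_cancel₀ hk
    have e1 : (q * x8) ^ 2 * (2 * (b + c + e)) = (2 * (b + c + e) * q ^ 2) * x8 ^ 2 := by ring
    rw [h4, h1, h3] at e1
    linear_combination (9 / 4) * e1
  have h6 : 2 * (1 + b + c) - (1 + e + (b + c + e)) = 0 := by
    rcases mul_eq_zero.1 h5 with h | h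
    · exact h
    · exfalso
      apply hg1
      linear_combination h / 2
  have hb : b = 2 * e - 1 - c := by linear_combination h6 / 1
  refine ⟨hb, ?_⟩
  subst hb
  have hg' : 3 * e - 1 ≠ 0 := by
    intro h
    apply hg
    linear_combination h
  have hκ' : (8 / 3 * κ) ≠ 0 := mul_ne_zero (by norm_num) hκ
  -- (vi)
  have h7 : (3 * e - 1) * q ^ 2 = 8 / 3 * κ * e := by
    linear_combination h1 / 2
  have hq : q ≠ 0 := by
    intro h
    rw [h] at h7
    have : 8 / 3 * κ * e = 0 := by linear_combination -h7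
    exact (mul_ne_zero hκ' he) this
  -- (vii)
  have h8 : x8 = (3 * e - 1) * q := by
    apply mul_left_cancel₀ hq
    rw [h4]
    linear_combination -h7
  have hw : w = (3 * e - 1) * (q - p) := by
    have : (2 * e - 1 - c + c + e) * p + w = (3 * e - 1) * q := h8
    linear_combination this
  -- (viii)
  have h9 : (c + e) * (3 * e - 1) * (q - p) ^ 2 = 8 / 3 * κ * (2 * e - 1 - c) := by
    apply mul_left_cancel₀ hg'
    rw [hw] at W1
    linear_combination W1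
  -- (ix)
  have h10 : (c + e) * p ^ 2 = 8 / 3 * κ * (2 * c - e + 1) := by
    apply mul_left_cancel₀ (mul_ne_zero two_ne_zero he)
    linear_combination h2
  -- (x)
  set f := c + e with hfdef
  set g := 3 * e - 1 with hgdef
  have h11 : f * g * (2 * p * q) = 8 / 3 * κ * (e * f + g * (2 * c - e + 1) - (2 * e - 1 - c)) := by
    linear_combination f * h7 + g * h10 - h9
  -- (xi)
  have h12 : (e * f + g * (2 * c - e + 1) - (2 * e - 1 - c)) ^ 2 = 4 * (2 * c - e + 1) * e * f * g := by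
    apply mul_left_cancel₀ (pow_ne_zero 2 hκ')
    have e1 : (f * g * (2 * p * q)) ^ 2 = 4 * (f * p ^ 2) * (g * q ^ 2) * f * g := by ring
    rw [h11, h10, h7] at e1
    linear_combination e1
  -- (xii)
  have h13 : 8 * f * g * (q * ζ) = 8 / 3 * κ * e * (3 * c * g + 2 * (1 - e) * f) := by
    have e1 := B7
    have e2 : (2 * e - 1 - c + c + e) = g := by rw [hgdef]; ring
    rw [e2] at e1
    have e3 : 1 + g = 3 * e := by rw [hgdef]; ring
    have e4 : 1 + e + g = 4 * e := by rw [hgdef]; ring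
    have e5 : e + g = 4 * e - 1 := by rw [hgdef]; ring
    rw [e3, e4, e5] at e1
    have e6 : g = 3 * e - 1 := hgdef
    -- multiply by `4 g`
    have e7 : f * ((4 * e - 1) * (g * q ^ 2)) + g * ((-2) * f * (q * ζ)) + g * (2 / 3 * κ * (3 * e) * c) =
        g * (κ * (4 * e) * f) := by linear_combination g * e1
    rw [h7] at e7
    rw [e6] at e7 ⊢
    linear_combination -4 * e7
  -- (xiii)
  have h14 : (3 * c * g + 2 * (1 - e) * f) ^ 2 = 16 * c * f * g := by
    apply mul_left_cancel₀ (pow_ne_zero 2 (mul_ne_zero hκ' he))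
    have e1 : (8 * f * g * (q * ζ)) ^ 2 = 64 * f * g * (g * q ^ 2) * (f * ζ ^ 2) := by ring
    rw [h13, h7, Z1] at e1
    linear_combination e1
  refine ⟨?_, h14⟩
  -- (xiv), (xv)
  have h15 : e * f + g * (2 * c - e + 1) - (2 * e - 1 - c) = 3 * c * g + 2 * (1 - e) * f := by
    rw [hfdef, hgdef]
    ring
  rw [h15, h14] at h12
  apply mul_left_cancel₀ (mul_ne_zero (mul_ne_zero (show (4 : ℂ) ≠ 0 by norm_num) hf) hg')
  linear_combination -h12

/-- The integer arithmetic at the end. -/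
theorem int_end (c e : ℤ) (hc : c ≠ 0) (he : e ≠ 0)
    (h1 : (2 * c - e + 1) * e = 4 * c)
    (h2 : (3 * c * (3 * e - 1) + 2 * (1 - e) * (c + e)) ^ 2 = 16 * c * (c + e) * (3 * e - 1)) :
    c = 3 ∧ e = 3 := by
  have hu : 2 * c * (e - 2) = e * (e - 1) := by linear_combination h1
  have he2 : e ≠ 2 := by
    rintro rfl
    norm_num at hu
  have he1 : e ≠ 1 := by
    rintro rfl
    apply hc
    linarith
  have hfu : 2 * (c + e) * (e - 2) = e * (3 * e - 5) := by linear_combination hu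
  have hL : (3 * c * (3 * e - 1) + 2 * (1 - e) * (c + e)) * (2 * (e - 2)) =
      e * (e - 1) * (3 * e + 7) := by
    linear_combination (3 * (3 * e - 1)) * hu + (2 * (1 - e)) * hfu
  have hE : (e * (e - 1)) * (e * ((e - 1) * (3 * e + 7) ^ 2 - 16 * (3 * e - 5) * (3 * e - 1))) = 0 := by
    have e1 : ((3 * c * (3 * e - 1) + 2 * (1 - e) * (c + e)) * (2 * (e - 2))) ^ 2 =
        16 * (2 * c * (e - 2)) * (2 * (c + e) * (e - 2)) * (3 * e - 1) := by
      linear_combination (2 * (e - 2)) ^ 2 * h2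
    rw [hL, hu, hfu] at e1
    linear_combination e1
  have hne : e * (e - 1) ≠ 0 := mul_ne_zero he (sub_ne_zero.2 he1)
  have h3 := (mul_eq_zero.1 hE).resolve_left hne
  have h4 := (mul_eq_zero.1 h3).resolve_left he
  have h5 : (e - 3) * (9 * e ^ 2 - 84 * e + 43) = 0 := by linear_combination h4
  have h6 : 9 * e ^ 2 - 84 * e + 43 ≠ 0 := by
    intro h
    generalize e ^ 2 = s at h
    omega
  have h7 : e = 3 := by
    have := (mul_eq_zero.1 h5).resolve_right h6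
    omega
  subst h7
  constructor
  · linarith
  · rfl

/-- The system for the degrees. -/
theorem alg648 (b c e : ℤ) (hb : b ≠ 0) (hc : c ≠ 0) (he : e ≠ 0) (hf : c + e ≠ 0)
    (hg : b + c + e ≠ 0) (hD : 1 + b + c ≠ 0) (hD' : 1 + e + (b + c + e) ≠ 0)
    (hg1 : 1 + (b + c + e) ≠ 0) (κ x2 x3 x4 y2 y3 y4 : ℂ) (hκ : κ ≠ 0)
    (r1xx : x3 * x3 / c + x4 * x4 / e - (x3 + x4) * (x3 + x4) / ((c : ℂ) + e) = 0)
    (r1yy : y3 * y3 / c + y4 * y4 / e - (y3 + y4) * (y3 + y4) / ((c : ℂ) + e) = 2 / 3 * κ)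
    (r2xx : x2 * x2 / b + (x3 + x4) * (x3 + x4) / ((c : ℂ) + e) -
      (x2 + (x3 + x4)) * (x2 + (x3 + x4)) / ((b : ℂ) + c + e) = 8 / 3 * κ)
    (r2yy : y2 * y2 / b + (y3 + y4) * (y3 + y4) / ((c : ℂ) + e) -
      (y2 + (y3 + y4)) * (y2 + (y3 + y4)) / ((b : ℂ) + c + e) = 0)
    (r4xx : x2 * x2 / b + x3 * x3 / c - (x2 + x3) * (x2 + x3) / (1 + (b : ℂ) + c) = 8 / 3 * κ)
    (r4xy : x2 * y2 / b + x3 * y3 / c - (x2 + x3) * (y2 + y3) / (1 + (b : ℂ) + c) = 4 / 3 * κ)
    (r4yy : y2 * y2 / b + y3 * y3 / c - (y2 + y3) * (y2 + y3) / (1 + (b : ℂ) + c) = 4 / 3 * κ)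
    (r7xx : x4 * x4 / e + (x2 + (x3 + x4)) * (x2 + (x3 + x4)) / ((b : ℂ) + c + e) -
      (x4 + (x2 + (x3 + x4))) * (x4 + (x2 + (x3 + x4))) / (1 + (e : ℂ) + ((b : ℂ) + c + e)) = 4 / 3 * κ)
    (r7xy : x4 * y4 / e + (x2 + (x3 + x4)) * (y2 + (y3 + y4)) / ((b : ℂ) + c + e) -
      (x4 + (x2 + (x3 + x4))) * (y4 + (y2 + (y3 + y4))) / (1 + (e : ℂ) + ((b : ℂ) + c + e)) = 2 / 3 * κ)
    (r7yy : y4 * y4 / e + (y2 + (y3 + y4)) * (y2 + (y3 + y4)) / ((b : ℂ) + c + e) -
      (y4 + (y2 + (y3 + y4))) * (y4 + (y2 + (y3 + y4))) / (1 + (e : ℂ) + ((b : ℂ) + c + e)) = κ) :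
    b = 2 ∧ c = 3 ∧ e = 3 := by
  have hb' : (b : ℂ) ≠ 0 := by exact_mod_cast hb
  have hc' : (c : ℂ) ≠ 0 := by exact_mod_cast hc
  have he' : (e : ℂ) ≠ 0 := by exact_mod_cast he
  have hf' : (c : ℂ) + e ≠ 0 := by exact_mod_cast hf
  have hg' : (b : ℂ) + c + e ≠ 0 := by exact_mod_cast hg
  have hD1 : 1 + (b : ℂ) + c ≠ 0 := by exact_mod_cast hD
  have hD2 : 1 + (e : ℂ) + ((b : ℂ) + c + e) ≠ 0 := by exact_mod_cast hD'
  have hg1' : 1 + ((b : ℂ) + c + e) ≠ 0 := by exact_mod_cast hg1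
  generalize hbb : (b : ℂ) = B at *
  generalize hcc : (c : ℂ) = C at *
  generalize hee : (e : ℂ) = Ee at *
  -- Step 1
  have s1 : (x3 * Ee - x4 * C) ^ 2 = 0 := by
    have i : x3 * x3 / C + x4 * x4 / Ee - (x3 + x4) * (x3 + x4) / (C + Ee) =
        (x3 * Ee - x4 * C) ^ 2 / (C * Ee * (C + Ee)) := by
      field_simp
      ring
    rw [i] at r1xx
    have := (div_eq_iff (mul_ne_zero (mul_ne_zero hc' he') hf')).1 r1xx
    simpa using this
  have s1' : x3 * Ee = x4 * C := sub_eq_zero.1 (pow_eq_zero_iff (two_ne_zero)|>.1 s1)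
  have s2 : (y2 * (C + Ee) - (y3 + y4) * B) ^ 2 = 0 := by
    have i : y2 * y2 / B + (y3 + y4) * (y3 + y4) / (C + Ee) -
        (y2 + (y3 + y4)) * (y2 + (y3 + y4)) / (B + C + Ee) =
        (y2 * (C + Ee) - (y3 + y4) * B) ^ 2 / (B * (C + Ee) * (B + C + Ee)) := by
      field_simp
      ring
    rw [i] at r2yy
    have := (div_eq_iff (mul_ne_zero (mul_ne_zero hb' hf') hg')).1 r2yy
    simpa using this
  have s2' : y2 * (C + Ee) = (y3 + y4) * B := sub_eq_zero.1 (pow_eq_zero_iff (two_ne_zero)|>.1 s2)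
  obtain ⟨p, hp⟩ : ∃ p, p = x3 / C := ⟨_, rfl⟩
  obtain ⟨q, hq⟩ : ∃ q, q = y2 / B := ⟨_, rfl⟩
  have hx3 : x3 = C * p := by rw [hp]; field_simp
  have hx4 : x4 = Ee * p := by
    rw [hp]
    field_simp
    linear_combination -s1'
  have hy2 : y2 = B * q := by rw [hq]; field_simp
  have hy34 : y3 + y4 = (C + Ee) * q := by
    rw [hq]
    field_simp
    linear_combination -s2'
  obtain ⟨ζ, hζ⟩ : ∃ ζ, ζ = y3 - C * q := ⟨_, rfl⟩
  obtain ⟨w, hw⟩ : ∃ w, w = x2 - B * p := ⟨_, rfl⟩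
  have hy3 : y3 = C * q + ζ := by rw [hζ]; ring
  have hy4 : y4 = Ee * q - ζ := by rw [hζ]; linear_combination hy34
  have hx2 : x2 = B * p + w := by rw [hw]; ring
  subst hx3 hx4 hy2 hy3 hy4 hx2
  clear s1 s1' s2 s2' hp hq hζ hw hy34
  have Z1 : (C + Ee) * ζ ^ 2 = 2 / 3 * κ * C * Ee := by
    have i : (C * q + ζ) * (C * q + ζ) / C + (Ee * q - ζ) * (Ee * q - ζ) / Ee -
        (C * q + ζ + (Ee * q - ζ)) * (C * q + ζ + (Ee * q - ζ)) / (C + Ee) =
        ζ ^ 2 * (C + Ee) / (C * Ee) := by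
      field_simp
      ring
    rw [i] at r1yy
    have := (div_eq_iff (mul_ne_zero hc' he')).1 r1yy
    linear_combination this
  have W1 : (C + Ee) * w ^ 2 = 8 / 3 * κ * B * (B + C + Ee) := by
    have i : (B * p + w) * (B * p + w) / B + (C * p + Ee * p) * (C * p + Ee * p) / (C + Ee) -
        (B * p + w + (C * p + Ee * p)) * (B * p + w + (C * p + Ee * p)) / (B + C + Ee) =
        w ^ 2 * (C + Ee) / (B * (B + C + Ee)) := by
      field_simp
      ring
    rw [i] at r2xx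
    have := (div_eq_iff (mul_ne_zero hb' hg')).1 r2xx
    linear_combination this
  have hw2 : w ^ 2 * (C + Ee) / B = 8 / 3 * κ * (B + C + Ee) := by
    rw [div_eq_iff hb']
    linear_combination W1
  have hw3 : w ^ 2 * (C + Ee) / (B + C + Ee) = 8 / 3 * κ * B := by
    rw [div_eq_iff hg']
    linear_combination W1
  have hz2 : ζ ^ 2 * (C + Ee) / C = 2 / 3 * κ * Ee := by
    rw [div_eq_iff hc']
    linear_combination Z1
  have hz3 : ζ ^ 2 * (C + Ee) / Ee = 2 / 3 * κ * C := by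
    rw [div_eq_iff he']
    linear_combination Z1
  have A4 : (C + Ee) * ((B + C) * p ^ 2 + 2 * p * w) + 8 / 3 * κ * (B + C + Ee) * (1 + C) =
      8 / 3 * κ * (1 + B + C) * (C + Ee) := by
    have i : (B * p + w) * (B * p + w) / B + (C * p) * (C * p) / C -
        (B * p + w + C * p) * (B * p + w + C * p) / (1 + B + C) =
        ((B + C) * p ^ 2 + 2 * p * w + w ^ 2 * (1 + C) / B) / (1 + B + C) := by
      field_simp
      ring
    rw [i] at r4xx
    have := (div_eq_iff hD1).1 r4xx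
    linear_combination (C + Ee) * this - (1 + C) * hw2
  have A7 : (C + Ee) * ((Ee + (B + C + Ee)) * p ^ 2 + 2 * p * w) + 8 / 3 * κ * B * (1 + Ee) =
      4 / 3 * κ * (1 + Ee + (B + C + Ee)) * (C + Ee) := by
    have i : (Ee * p) * (Ee * p) / Ee + (B * p + w + (C * p + Ee * p)) * (B * p + w + (C * p + Ee * p)) / (B + C + Ee) -
        (Ee * p + (B * p + w + (C * p + Ee * p))) * (Ee * p + (B * p + w + (C * p + Ee * p))) /
          (1 + Ee + (B + C + Ee)) =
        ((Ee + (B + C + Ee)) * p ^ 2 + 2 * p * w + w ^ 2 * (1 + Ee) / (B + C + Ee)) / (1 + Ee + (B + C + Ee)) := by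
      field_simp
      ring
    rw [i] at r7xx
    have := (div_eq_iff hD2).1 r7xx
    linear_combination (C + Ee) * this - (1 + Ee) * hw3
  have B4 : (C + Ee) * ((B + C) * q ^ 2 + 2 * q * ζ) + 2 / 3 * κ * (1 + B) * Ee =
      4 / 3 * κ * (1 + B + C) * (C + Ee) := by
    have i : (B * q) * (B * q) / B + (C * q + ζ) * (C * q + ζ) / C -
        (B * q + (C * q + ζ)) * (B * q + (C * q + ζ)) / (1 + B + C) =
        ((B + C) * q ^ 2 + 2 * q * ζ + ζ ^ 2 * (1 + B) / C) / (1 + B + C) := by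
      field_simp
      ring
    rw [i] at r4yy
    have := (div_eq_iff hD1).1 r4yy
    linear_combination (C + Ee) * this - (1 + B) * hz2
  have B7 : (C + Ee) * ((Ee + (B + C + Ee)) * q ^ 2 - 2 * q * ζ) + 2 / 3 * κ * (1 + (B + C + Ee)) * C =
      κ * (1 + Ee + (B + C + Ee)) * (C + Ee) := by
    have i : (Ee * q - ζ) * (Ee * q - ζ) / Ee +
        (B * q + (C * q + ζ + (Ee * q - ζ))) * (B * q + (C * q + ζ + (Ee * q - ζ))) / (B + C + Ee) -
        (Ee * q - ζ + (B * q + (C * q + ζ + (Ee * q - ζ)))) * (Ee * q - ζ + (B * q + (C * q + ζ + (Ee * q - ζ)))) /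
          (1 + Ee + (B + C + Ee)) =
        ((Ee + (B + C + Ee)) * q ^ 2 - 2 * q * ζ + ζ ^ 2 * (1 + (B + C + Ee)) / Ee) / (1 + Ee + (B + C + Ee)) := by
      field_simp
      ring
    rw [i] at r7yy
    have := (div_eq_iff hD2).1 r7yy
    linear_combination (C + Ee) * this - (1 + (B + C + Ee)) * hz3
  have C4 : (B + C) * p * q + w * q + p * ζ - w * ζ = 4 / 3 * κ * (1 + B + C) := by
    have i : (B * p + w) * (B * q) / B + (C * p) * (C * q + ζ) / C -
        (B * p + w + C * p) * (B * q + (C * q + ζ)) / (1 + B + C) =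
        ((B + C) * p * q + w * q + p * ζ - w * ζ) / (1 + B + C) := by
      field_simp
      ring
    rw [i] at r4xy
    exact (div_eq_iff hD1).1 r4xy
  have C7 : (Ee + (B + C + Ee)) * p * q - p * ζ + w * q + w * ζ = 2 / 3 * κ * (1 + Ee + (B + C + Ee)) := by
    have i : (Ee * p) * (Ee * q - ζ) / Ee +
        (B * p + w + (C * p + Ee * p)) * (B * q + (C * q + ζ + (Ee * q - ζ))) / (B + C + Ee) -
        (Ee * p + (B * p + w + (C * p + Ee * p))) * (Ee * q - ζ + (B * q + (C * q + ζ + (Ee * q - ζ)))) /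
          (1 + Ee + (B + C + Ee)) =
        ((Ee + (B + C + Ee)) * p * q - p * ζ + w * q + w * ζ) / (1 + Ee + (B + C + Ee)) := by
      field_simp
      ring
    rw [i] at r7xy
    exact (div_eq_iff hD2).1 r7xy
  obtain ⟨h1, h2, h3⟩ := core1 B C Ee κ p q ζ w hκ hf' hg' he' hg1' W1 Z1 A4 A7 B4 B7 C4 C7
  subst hbb hcc hee
  have h2' : (2 * c - e + 1) * e = 4 * c := by exact_mod_cast h2
  have h3' : (3 * c * (3 * e - 1) + 2 * (1 - e) * (c + e)) ^ 2 = 16 * c * (c + e) * (3 * e - 1) := by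
    exact_mod_cast h3
  have h1' : b = 2 * e - 1 - c := by exact_mod_cast h1
  obtain ⟨rfl, rfl⟩ := int_end c e hc he h2' h3'
  refine ⟨?_, rfl, rfl⟩
  rw [h1']
  norm_num

end Cfsg.Agent.Lib.Alg648
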