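import Mathlib
import Cfsg.Agent.Lib.AltWreath

/-!
# Overgroups of 3-subgroups of alternating groups: orbits and block systems
-/

set_option autoImplicit false
set_option linter.unusedSectionVars false

namespace Cfsg.Agent.Lib.AltBlocks

open Equiv Equiv.Perm MulAction Cfsg.Agent.Lib.PartitionStab Cfsg.Agent.Lib.AltWreath
open scoped Pointwise

variable {Ω : Type*} [Fintype Ω] [DecidableEq Ω]

theorem card_orbit_pow {Q : Subgroup (Perm Ω)} (hQ : IsPGroup 3 Q) (x : Ω) :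
    ∃ a, Nat.card (orbit Q x) = 3 ^ a := by
  classical
  haveI : Fact (Nat.Prime 3) := ⟨Nat.prime_three⟩
  obtain ⟨m, hm⟩ := IsPGroup.iff_card.mp hQ
  have h1 : Nat.card (orbit Q x) ∣ Nat.card Q := by
    rw [Nat.card_congr (orbitEquivQuotientStabilizer Q x)]
    exact Subgroup.card_quotient_dvd_card _
  rw [hm] at h1
  obtain ⟨a, -, ha⟩ := (Nat.dvd_prime_pow Nat.prime_three).mp h1
  exact ⟨a, ha⟩

theorem exists_block_fn {Q : Subgroup (Perm Ω)} (hQ : IsPGroup 3 Q) (x : Ω) {a c : ℕ}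
    (hO : Nat.card (orbit Q x) = 3 ^ a) (hc : c ≤ a) :
    ∃ π : orbit Q x → Fin (3 ^ (a - c)), (∀ i, Nat.card {u // π u = i} = 3 ^ c) ∧
      ∀ (g : Q) (u v : orbit Q x), π u = π v ↔ π (g • u) = π (g • v) := by
  classical
  haveI : Fact (Nat.Prime 3) := ⟨Nat.prime_three⟩
  obtain ⟨m, hm⟩ := IsPGroup.iff_card.mp hQ
  set St : Subgroup Q := stabilizer Q x with hSt
  have hcard : Nat.card (Q ⧸ St) = 3 ^ a := by
    rw [← Nat.card_congr (orbitEquivQuotientStabilizer Q x)]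
    exact hO
  have h1 : Nat.card (Q ⧸ St) * Nat.card St = Nat.card Q :=
    (Subgroup.card_eq_card_quotient_mul_card_subgroup St).symm
  rw [hcard, hm] at h1
  have ham : a ≤ m := (Nat.pow_dvd_pow_iff_le_right (by norm_num)).mp ⟨_, h1.symm⟩
  have hS : Nat.card St = 3 ^ (m - a) := by
    have h2 : 3 ^ m = 3 ^ a * 3 ^ (m - a) := by
      rw [← pow_add]
      congr 1
      omega
    rw [h2] at h1
    exact Nat.eq_of_mul_eq_mul_left (by positivity) h1
  obtain ⟨K, hK, hStK⟩ := Sylow.exists_subgroup_card_pow_prime_le 3 (n := m - a) (m := m - a + c)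
    (by rw [hm]; exact pow_dvd_pow 3 (by omega)) St hS (by omega)
  have hidx : Nat.card (Q ⧸ K) = 3 ^ (a - c) := by
    have h2 : Nat.card (Q ⧸ K) * Nat.card K = Nat.card Q :=
      (Subgroup.card_eq_card_quotient_mul_card_subgroup K).symm
    rw [hK, hm] at h2
    have h3 : 3 ^ m = 3 ^ (a - c) * 3 ^ (m - a + c) := by
      rw [← pow_add]
      congr 1
      omega
    exact Nat.eq_of_mul_eq_mul_right (by positivity) (h2.trans h3)
  let e₁ : Q ⧸ K ≃ Fin (3 ^ (a - c)) := Finite.equivFinOfCardEq hidx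
  let E : orbit Q x ≃ (Q ⧸ K) × (K ⧸ St.subgroupOf K) :=
    (orbitEquivQuotientStabilizer Q x).trans (Subgroup.quotientEquivProdOfLE hStK)
  have hE : ∀ (h : Q) (u : orbit Q x), u.1 = h • x → (E u).1 = (h : Q ⧸ K) := by
    intro h u hu
    have h2 : orbitEquivQuotientStabilizer Q x u = (h : Q ⧸ St) := by
      rw [← Equiv.eq_symm_apply]
      apply Subtype.ext
      rw [orbitEquivQuotientStabilizer_symm_apply, hu]
    show (Subgroup.quotientEquivProdOfLE hStK (orbitEquivQuotientStabilizer Q x u)).1 = _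
    rw [h2]
    rfl
  refine ⟨fun u => e₁ (E u).1, ?_, ?_⟩
  · intro i
    have h2 : Nat.card (K ⧸ St.subgroupOf K) = 3 ^ c := by
      have h3 : Nat.card K = Nat.card (K ⧸ St.subgroupOf K) * Nat.card (St.subgroupOf K) :=
        Subgroup.card_eq_card_quotient_mul_card_subgroup _
      have h4 : Nat.card (St.subgroupOf K) = Nat.card St :=
        Nat.card_congr (Subgroup.subgroupOfEquivOfLe hStK).toEquiv
      rw [h4, hS, hK] at h3
      have h5 : 3 ^ (m - a + c) = 3 ^ c * 3 ^ (m - a) := by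
        rw [← pow_add]
        congr 1
        omega
      rw [h5] at h3
      exact (Nat.eq_of_mul_eq_mul_right (by positivity) h3).symm
    rw [← h2]
    apply Nat.card_congr
    refine ⟨fun u => (E u.1).2, fun t => ⟨E.symm (e₁.symm i, t), by simp⟩, ?_, ?_⟩
    · rintro ⟨u, hu⟩
      apply Subtype.ext
      show E.symm (e₁.symm i, (E u).2) = u
      rw [Equiv.symm_apply_eq]
      apply Prod.ext
      · show e₁.symm i = (E u).1
        rw [Equiv.symm_apply_eq]
        exact hu.symm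
      · rfl
    · intro t
      simp
  · intro g u v
    obtain ⟨h₁, hh₁⟩ := u.2
    obtain ⟨h₂, hh₂⟩ := v.2
    have hu : u.1 = h₁ • x := hh₁.symm
    have hv : v.1 = h₂ • x := hh₂.symm
    have hgu : (g • u).1 = (g * h₁) • x := by
      rw [mul_smul, ← hu]
      rfl
    have hgv : (g • v).1 = (g * h₂) • x := by
      rw [mul_smul, ← hv]
      rfl
    show e₁ (E u).1 = e₁ (E v).1 ↔ e₁ (E (g • u)).1 = e₁ (E (g • v)).1
    rw [hE h₁ u hu, hE h₂ v hv, hE _ _ hgu, hE _ _ hgv, e₁.injective.eq_iff, e₁.injective.eq_iff,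
      QuotientGroup.eq, QuotientGroup.eq]
    have h3 : (g * h₁)⁻¹ * (g * h₂) = h₁⁻¹ * h₂ := by group
    rw [h3]

theorem smul_mem_orbit_iff {Q : Subgroup (Perm Ω)} (x a : Ω) (g : Q) :
    g • a ∈ orbit Q x ↔ a ∈ orbit Q x := by
  constructor
  · intro h
    have := mem_orbit_of_mem_orbit g⁻¹ h
    simpa using this
  · exact mem_orbit_of_mem_orbit g

/-- Block function on a transitive action. -/
theorem exists_f_one {Q : Subgroup (Perm Ω)} (hQ : IsPGroup 3 Q) (x : Ω) (htr : ∀ u, u ∈ orbit Q x) {a c : ℕ}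
    (hO : Nat.card (orbit Q x) = 3 ^ a) (hc : c ≤ a) :
    ∃ f : Ω → Fin (3 ^ (a - c)), (∀ i, Nat.card {u // f u = i} = 3 ^ c) ∧ Q ≤ W f := by
  obtain ⟨π, h1, h2⟩ := exists_block_fn hQ x hO hc
  refine ⟨fun u => π ⟨u, htr u⟩, ?_, ?_⟩
  · intro i
    rw [← h1 i]
    apply Nat.card_congr
    exact ⟨fun u => ⟨⟨u.1, htr u.1⟩, u.2⟩, fun u => ⟨u.1.1, u.2⟩, fun _ => rfl, fun _ => rfl⟩
  · intro g hg u v
    exact h2 ⟨g, hg⟩ ⟨u, htr u⟩ ⟨v, htr v⟩

/-- Block function with two orbits. -/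
theorem exists_f_two {Q : Subgroup (Perm Ω)} (hQ : IsPGroup 3 Q) (x y : Ω)
    (hcov : ∀ u, u ∈ orbit Q x ∨ u ∈ orbit Q y) {a b c : ℕ}
    (hOx : Nat.card (orbit Q x) = 3 ^ a) (hOy : Nat.card (orbit Q y) = 3 ^ b) (hca : c ≤ a) (hcb : c ≤ b)
    (hd : ∀ u, u ∈ orbit Q x → u ∈ orbit Q y → False) :
    ∃ f : Ω → Fin (3 ^ (a - c) + 3 ^ (b - c)), (∀ i, Nat.card {u // f u = i} = 3 ^ c) ∧ Q ≤ W f ∧
      ∀ u v, u ∈ orbit Q x → f u = f v → v ∈ orbit Q x := by
  classical
  obtain ⟨π₁, h11, h12⟩ := exists_block_fn hQ x hOx hca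
  obtain ⟨π₂, h21, h22⟩ := exists_block_fn hQ y hOy hcb
  have hy' : ∀ u, u ∉ orbit Q x → u ∈ orbit Q y := fun u hu => (hcov u).resolve_left hu
  let f : Ω → Fin (3 ^ (a - c) + 3 ^ (b - c)) := fun u =>
    if h : u ∈ orbit Q x then Fin.castAdd _ (π₁ ⟨u, h⟩) else Fin.natAdd _ (π₂ ⟨u, hy' u h⟩)
  have hf1 : ∀ u (h : u ∈ orbit Q x), f u = Fin.castAdd _ (π₁ ⟨u, h⟩) := fun u h => by
    simp only [f, dif_pos h]
  have hf2 : ∀ u (h : u ∉ orbit Q x), f u = Fin.natAdd _ (π₂ ⟨u, hy' u h⟩) := fun u h => by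
    simp only [f, dif_neg h]
  have hne : ∀ (i : Fin (3 ^ (a - c))) (j : Fin (3 ^ (b - c))),
      (Fin.castAdd (3 ^ (b - c)) i) ≠ Fin.natAdd (3 ^ (a - c)) j := by
    intro i j h
    have h1 := congrArg Fin.val h
    simp only [Fin.val_castAdd, Fin.val_natAdd] at h1
    have := i.2
    omega
  have hinj1 : ∀ i j : Fin (3 ^ (a - c)),
      (Fin.castAdd (3 ^ (b - c)) i) = Fin.castAdd (3 ^ (b - c)) j → i = j := by
    intro i j h
    apply Fin.ext
    simpa using congrArg Fin.val h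
  have hinj2 : ∀ i j : Fin (3 ^ (b - c)),
      (Fin.natAdd (3 ^ (a - c)) i) = Fin.natAdd (3 ^ (a - c)) j → i = j := by
    intro i j h
    apply Fin.ext
    simpa using congrArg Fin.val h
  refine ⟨f, ?_, ?_, ?_⟩
  · intro i
    refine Fin.addCases (fun j => ?_) (fun j => ?_) i
    · rw [← h11 j]
      apply Nat.card_congr
      refine (Equiv.ofBijective (fun u : {u // π₁ u = j} => (⟨u.1.1, ?_⟩ : {u // f u = Fin.castAdd _ j})) ⟨?_, ?_⟩).symm
      · rw [hf1 _ u.1.2]
        congr 1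
        exact u.2
      · intro u v huv
        apply Subtype.ext
        apply Subtype.ext
        exact congrArg (fun w : {u // f u = Fin.castAdd _ j} => w.1) huv
      · rintro ⟨u, hu⟩
        by_cases h : u ∈ orbit Q x
        · refine ⟨⟨⟨u, h⟩, ?_⟩, rfl⟩
          rw [hf1 u h] at hu
          exact hinj1 _ _ hu
        · exfalso
          rw [hf2 u h] at hu
          exact hne _ _ hu.symm
    · rw [← h21 j]
      apply Nat.card_congr
      refine (Equiv.ofBijective (fun u : {u // π₂ u = j} => (⟨u.1.1, ?_⟩ : {u // f u = Fin.natAdd _ j})) ⟨?_, ?_⟩).symm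
      · have h : u.1.1 ∉ orbit Q x := fun h => hd _ h u.1.2
        rw [hf2 _ h]
        congr 1
        exact u.2
      · intro u v huv
        apply Subtype.ext
        apply Subtype.ext
        exact congrArg (fun w : {u // f u = Fin.natAdd _ j} => w.1) huv
      · rintro ⟨u, hu⟩
        by_cases h : u ∈ orbit Q x
        · exfalso
          rw [hf1 u h] at hu
          exact hne _ _ hu
        · refine ⟨⟨⟨u, hy' u h⟩, ?_⟩, rfl⟩
          rw [hf2 u h] at hu
          exact hinj2 _ _ hu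
  · intro g hg u v
    have hgx : ∀ w, g w ∈ orbit Q x ↔ w ∈ orbit Q x := fun w => smul_mem_orbit_iff x w ⟨g, hg⟩
    by_cases hu : u ∈ orbit Q x <;> by_cases hv : v ∈ orbit Q x
    · rw [hf1 u hu, hf1 v hv, hf1 _ ((hgx u).mpr hu), hf1 _ ((hgx v).mpr hv)]
      constructor
      · intro h
        have h2 := hinj1 _ _ h
        have h3 := (h12 ⟨g, hg⟩ ⟨u, hu⟩ ⟨v, hv⟩).mp h2
        exact congrArg _ h3
      · intro h
        have h2 := hinj1 _ _ h
        have h3 := (h12 ⟨g, hg⟩ ⟨u, hu⟩ ⟨v, hv⟩).mpr h2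
        exact congrArg _ h3
    · rw [hf1 u hu, hf2 v hv, hf1 _ ((hgx u).mpr hu), hf2 _ (fun h => hv ((hgx v).mp h))]
      exact ⟨fun h => absurd h (hne _ _), fun h => absurd h (hne _ _)⟩
    · rw [hf2 u hu, hf1 v hv, hf2 _ (fun h => hu ((hgx u).mp h)), hf1 _ ((hgx v).mpr hv)]
      exact ⟨fun h => absurd h.symm (hne _ _), fun h => absurd h.symm (hne _ _)⟩
    · have hu' : g u ∉ orbit Q x := fun h => hu ((hgx u).mp h)
      have hv' : g v ∉ orbit Q x := fun h => hv ((hgx v).mp h)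
      rw [hf2 u hu, hf2 v hv, hf2 _ hu', hf2 _ hv']
      constructor
      · intro h
        have h2 := hinj2 _ _ h
        have h3 := (h22 ⟨g, hg⟩ ⟨u, hy' u hu⟩ ⟨v, hy' v hv⟩).mp h2
        exact congrArg _ h3
      · intro h
        have h2 := hinj2 _ _ h
        have h3 := (h22 ⟨g, hg⟩ ⟨u, hy' u hu⟩ ⟨v, hy' v hv⟩).mpr h2
        exact congrArg _ h3
  · intro u v hu huv
    by_contra hv
    rw [hf1 u hu, hf2 v hv] at huv
    exact hne _ _ huv

section main

variable {P : Subgroup (alternatingGroup Ω)}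

theorem le_of_proper (hU : ∃! M : Subgroup (alternatingGroup Ω), IsCoatom M ∧ P ≤ M)
    {Y M : Subgroup (alternatingGroup Ω)} (hY : Y ≠ ⊤) (hPY : P ≤ Y) (hM : IsCoatom M) (hPM : P ≤ M) : Y ≤ M := by
  obtain ⟨M', hM', hYM'⟩ := (eq_top_or_exists_le_coatom Y).resolve_left hY
  have h1 : M' = M := hU.unique ⟨hM', hPY.trans hYM'⟩ ⟨hM, hPM⟩
  rwa [← h1]

theorem le_stab_orbit (x : Ω) :
    P ≤ stabilizer (alternatingGroup Ω) (orbit (P.map (alternatingGroup Ω).subtype) x) := by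
  intro p hp
  rw [mem_stabilizer_set]
  intro a
  exact smul_mem_orbit_iff x a ⟨p.1, Subgroup.mem_map.mpr ⟨p, hp, rfl⟩⟩

theorem swap_mem_iff_of_notMem {s : Set Ω} {a b : Ω} (ha : a ∉ s) (hb : b ∉ s) (u : Ω) :
    swap a b u ∈ s ↔ u ∈ s := by
  rw [swap_apply_def]
  split_ifs with h1 h2
  · subst h1
    simp [ha, hb]
  · subst h2
    simp [ha, hb]
  · rfl

theorem swap_mem_iff_of_mem {s : Set Ω} {a b : Ω} (ha : a ∈ s) (hb : b ∈ s) (u : Ω) :
    swap a b u ∈ s ↔ u ∈ s := by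
  rw [swap_apply_def]
  split_ifs with h1 h2
  · subst h1
    simp [ha, hb]
  · subst h2
    simp [ha, hb]
  · rfl

theorem false_of_three_aux (hU : ∃! M : Subgroup (alternatingGroup Ω), IsCoatom M ∧ P ≤ M)
    (hn : 5 ≤ Nat.card Ω) {s s' t : Set Ω} (hs : s.Nonempty) (hs' : s'.Nonempty) (ht : t.Nonempty)
    (hss' : Disjoint s s') (hst : Disjoint s t) (hs't : Disjoint s' t)
    (h2s : Nat.card Ω ≠ 2 * s.ncard) (h2s' : Nat.card Ω ≠ 2 * s'.ncard) (hle : s.ncard ≤ s'.ncard)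
    (hP : P ≤ stabilizer (alternatingGroup Ω) s) (hP' : P ≤ stabilizer (alternatingGroup Ω) s') : False := by
  classical
  obtain ⟨a, ha⟩ := hs'
  obtain ⟨b, hb⟩ := ht
  obtain ⟨e₀, he₀⟩ := hs
  have haS : a ∉ s := fun h => Set.disjoint_left.mp hss' h ha
  have hbS : b ∉ s := fun h => Set.disjoint_left.mp hst h hb
  have hbS' : b ∉ s' := fun h => Set.disjoint_left.mp hs't h hb
  have hM := alternatingGroup.isCoatom_stabilizer (s := s) ⟨e₀, he₀⟩ ⟨a, haS⟩ h2s
  have hM' := alternatingGroup.isCoatom_stabilizer (s := s') ⟨a, ha⟩ ⟨b, hbS'⟩ h2s'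
  have heq := hU.unique ⟨hM, hP⟩ ⟨hM', hP'⟩
  have hab : a ≠ b := fun h => hbS' (h ▸ ha)
  -- cardinalities
  have hc1 : s.ncard + s'.ncard + t.ncard ≤ Nat.card Ω := by
    have h1 : (s ∪ s').ncard = s.ncard + s'.ncard := Set.ncard_union_eq hss' (Set.toFinite _) (Set.toFinite _)
    have h2 : ((s ∪ s') ∪ t).ncard = (s ∪ s').ncard + t.ncard :=
      Set.ncard_union_eq (Set.disjoint_union_left.mpr ⟨hst, hs't⟩) (Set.toFinite _) (Set.toFinite _)
    have h3 : ((s ∪ s') ∪ t).ncard ≤ Nat.card Ω := Set.ncard_le_card _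
    omega
  have ht1 : 1 ≤ t.ncard := (Set.ncard_pos (Set.toFinite _)).mpr ⟨b, hb⟩
  have hcompl : s.ncard + sᶜ.ncard = Nat.card Ω := Set.ncard_add_ncard_compl s
  have h3 : ({a, b} : Set Ω).ncard < sᶜ.ncard := by
    have := Set.ncard_pair hab
    omega
  obtain ⟨c, hc, hcab⟩ := Set.exists_mem_notMem_of_ncard_lt_ncard h3 (Set.toFinite _)
  simp only [Set.mem_insert_iff, Set.mem_singleton_iff, not_or] at hcab
  have h3c := isThreeCycle_swap_mul_swap_same hab (Ne.symm hcab.1) (Ne.symm hcab.2)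
  have hdstab : (⟨_, h3c.mem_alternatingGroup⟩ : alternatingGroup Ω) ∈ stabilizer (alternatingGroup Ω) s := by
    rw [mem_stabilizer_set]
    intro u
    show (swap a b * swap a c) u ∈ s ↔ u ∈ s
    rw [Perm.mul_apply]
    exact (swap_mem_iff_of_notMem haS hbS _).trans (swap_mem_iff_of_notMem haS hc u)
  rw [heq, mem_stabilizer_set] at hdstab
  have h4 := hdstab b
  have h5 : (swap a b * swap a c) b = a := by
    rw [Perm.mul_apply, swap_apply_of_ne_of_ne (Ne.symm hab) (Ne.symm hcab.2), swap_apply_right]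
  have h6 : (⟨_, h3c.mem_alternatingGroup⟩ : alternatingGroup Ω) • b = a := h5
  rw [h6] at h4
  exact hbS' (h4.mp ha)

theorem false_of_three_aux' (hU : ∃! M : Subgroup (alternatingGroup Ω), IsCoatom M ∧ P ≤ M)
    (hn : 5 ≤ Nat.card Ω) {s s' t : Set Ω} (hs : s.Nonempty) (hs' : s'.Nonempty) (ht : t.Nonempty)
    (hss' : Disjoint s s') (hst : Disjoint s t) (hs't : Disjoint s' t)
    (h2s : Nat.card Ω ≠ 2 * s.ncard) (h2s' : Nat.card Ω ≠ 2 * s'.ncard)
    (hP : P ≤ stabilizer (alternatingGroup Ω) s) (hP' : P ≤ stabilizer (alternatingGroup Ω) s') : False := by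
  rcases le_total s.ncard s'.ncard with hle | hle
  · exact false_of_three_aux hU hn hs hs' ht hss' hst hs't h2s h2s' hle hP hP'
  · exact false_of_three_aux hU hn hs' hs ht hss'.symm hs't hst h2s' h2s hle hP' hP

theorem false_of_three (hU : ∃! M : Subgroup (alternatingGroup Ω), IsCoatom M ∧ P ≤ M)
    (hn : 5 ≤ Nat.card Ω) {s₁ s₂ s₃ : Set Ω} (h₁ : s₁.Nonempty) (h₂ : s₂.Nonempty) (h₃ : s₃.Nonempty)
    (h₁₂ : Disjoint s₁ s₂) (h₁₃ : Disjoint s₁ s₃) (h₂₃ : Disjoint s₂ s₃)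
    (hP₁ : P ≤ stabilizer (alternatingGroup Ω) s₁) (hP₂ : P ≤ stabilizer (alternatingGroup Ω) s₂)
    (hP₃ : P ≤ stabilizer (alternatingGroup Ω) s₃) : False := by
  have hc1 : s₁.ncard + s₂.ncard + s₃.ncard ≤ Nat.card Ω := by
    have h1 : (s₁ ∪ s₂).ncard = s₁.ncard + s₂.ncard := Set.ncard_union_eq h₁₂ (Set.toFinite _) (Set.toFinite _)
    have h2 : ((s₁ ∪ s₂) ∪ s₃).ncard = (s₁ ∪ s₂).ncard + s₃.ncard :=
      Set.ncard_union_eq (Set.disjoint_union_left.mpr ⟨h₁₃, h₂₃⟩) (Set.toFinite _) (Set.toFinite _)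
    have h3 : ((s₁ ∪ s₂) ∪ s₃).ncard ≤ Nat.card Ω := Set.ncard_le_card _
    omega
  have h1 : 1 ≤ s₁.ncard := (Set.ncard_pos (Set.toFinite _)).mpr h₁
  have h2 : 1 ≤ s₂.ncard := (Set.ncard_pos (Set.toFinite _)).mpr h₂
  have h3 : 1 ≤ s₃.ncard := (Set.ncard_pos (Set.toFinite _)).mpr h₃
  by_cases c1 : Nat.card Ω = 2 * s₁.ncard
  · exact false_of_three_aux' hU hn h₂ h₃ h₁ h₂₃ h₁₂.symm h₁₃.symm (by omega) (by omega) hP₂ hP₃
  · by_cases c2 : Nat.card Ω = 2 * s₂.ncard
    · exact false_of_three_aux' hU hn h₁ h₃ h₂ h₁₃ h₁₂ h₂₃.symm (by omega) (by omega) hP₁ hP₃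
    · exact false_of_three_aux' hU hn h₁ h₂ h₃ h₁₂ h₁₃ h₂₃ c1 c2 hP₁ hP₂

theorem false_of_two (hU : ∃! M : Subgroup (alternatingGroup Ω), IsCoatom M ∧ P ≤ M)
    (hP3 : IsPGroup 3 P) {x y : Ω}
    (hcov : ∀ u, u ∈ orbit (P.map (alternatingGroup Ω).subtype) x ∨ u ∈ orbit (P.map (alternatingGroup Ω).subtype) y)
    (hd : ∀ u, u ∈ orbit (P.map (alternatingGroup Ω).subtype) x → u ∈ orbit (P.map (alternatingGroup Ω).subtype) y → False)
    {a b : ℕ} (hOx : Nat.card (orbit (P.map (alternatingGroup Ω).subtype) x) = 3 ^ a)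
    (hOy : Nat.card (orbit (P.map (alternatingGroup Ω).subtype) y) = 3 ^ b) (ha : 2 ≤ a) (hb : 1 ≤ b) : False := by
  classical
  set Q : Subgroup (Perm Ω) := P.map (alternatingGroup Ω).subtype with hQdef
  have hQ : IsPGroup 3 Q := hP3.map _
  obtain ⟨f, hf, hW, hfO⟩ := exists_f_two hQ x y hcov (c := 1) hOx hOy (by omega) (by omega) hd
  have hf' : ∀ i, Nat.card {u // f u = i} = 3 := fun i => by rw [hf i, pow_one]
  have hb1 : 1 ≤ 3 ^ (a - 1) := Nat.one_le_pow _ _ (by norm_num)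
  have hb2 : 1 ≤ 3 ^ (b - 1) := Nat.one_le_pow _ _ (by norm_num)
  have h8 : Fintype.card Ω ≠ 8 := by
    rw [card_eq_mul hf']
    omega
  have hcoat := isCoatom_Wplus h8 (by norm_num) (by omega) hf'
  have hPM : P ≤ (W f ⊓ alternatingGroup Ω).subgroupOf (alternatingGroup Ω) := by
    intro p hp
    rw [Subgroup.mem_subgroupOf]
    have hpQ : (p : Perm Ω) ∈ Q := ⟨p, hp, rfl⟩
    exact Subgroup.mem_inf.mpr ⟨hW hpQ, p.2⟩
  have hxmem : x ∈ orbit Q x := mem_orbit_self x
  have h9 : 9 ≤ Nat.card (orbit Q x) := by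
    rw [hOx]
    calc 9 = 3 ^ 2 := by norm_num
      _ ≤ 3 ^ a := Nat.pow_le_pow_right (by norm_num) ha
  have h3y : 3 ≤ Nat.card (orbit Q y) := by
    rw [hOy]
    calc 3 = 3 ^ 1 := by norm_num
      _ ≤ 3 ^ b := Nat.pow_le_pow_right (by norm_num) hb
  have hYne : stabilizer (alternatingGroup Ω) (orbit Q x) ≠ ⊤ := by
    apply alternatingGroup.stabilizer_ne_top ⟨x, hxmem⟩
    have h4 : 1 < Nat.card (orbit Q y) := by omega
    obtain ⟨⟨u, hu⟩, ⟨v, hv⟩, huv⟩ := Finite.one_lt_card_iff_nontrivial.mp h4 |>.exists_pair_ne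
    exact ⟨u, fun h => hd u h hu, v, fun h => hd v h hv, fun h => huv (Subtype.ext h)⟩
  have hYM := le_of_proper hU hYne (le_stab_orbit x) hcoat hPM
  obtain ⟨y', v', -, hfy', -, hy'x, -⟩ := exists_pair_in_fibre_avoid (by norm_num) hf' x (f x)
  have hy'O : y' ∈ orbit Q x := hfO x y' hxmem hfy'.symm
  have hz : ∃ z ∈ orbit Q x, f z ≠ f x := by
    by_contra hcon
    push Not at hcon
    have h5 : Nat.card (orbit Q x) ≤ Nat.card {u // f u = f x} :=
      Nat.card_le_card_of_injective (fun u : orbit Q x => (⟨u.1, hcon u.1 u.2⟩ : {u // f u = f x}))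
        (fun u v huv => Subtype.ext (congrArg (fun w : {u // f u = f x} => w.1) huv))
    rw [hf'] at h5
    omega
  obtain ⟨z, hzO, hfz⟩ := hz
  have hzx : z ≠ x := fun h => hfz (by rw [h])
  have hzy' : z ≠ y' := fun h => hfz (by rw [h, hfy'])
  have h3c := isThreeCycle_swap_mul_swap_same (Ne.symm hy'x) (Ne.symm hzx) (Ne.symm hzy')
  have hdY : (⟨_, h3c.mem_alternatingGroup⟩ : alternatingGroup Ω) ∈ stabilizer (alternatingGroup Ω) (orbit Q x) := by
    rw [mem_stabilizer_set]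
    intro u
    show (swap x y' * swap x z) u ∈ orbit Q x ↔ u ∈ orbit Q x
    rw [Perm.mul_apply]
    exact (swap_mem_iff_of_mem hxmem hy'O _).trans (swap_mem_iff_of_mem hxmem hzO u)
  have hdM := hYM hdY
  rw [Subgroup.mem_subgroupOf] at hdM
  have hdW : swap x y' * swap x z ∈ W f := (Subgroup.mem_inf.mp hdM).1
  have h6 := (hdW x y').mp hfy'.symm
  have h7 : (swap x y' * swap x z) x = z := by
    rw [Perm.mul_apply, swap_apply_left, swap_apply_of_ne_of_ne hzx hzy']
  have h8' : (swap x y' * swap x z) y' = x := by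
    rw [Perm.mul_apply, swap_apply_of_ne_of_ne hy'x (Ne.symm hzy'), swap_apply_right]
  rw [h7, h8'] at h6
  exact hfz h6

theorem exists_in_fibre_avoid {β : Type*} {h : Ω → β} {A : ℕ} {i : β} (hA : Nat.card {u // h u = i} = A)
    (s : Finset Ω) (hs : s.card < A) : ∃ t, h t = i ∧ t ∉ s := by
  classical
  by_contra hcon
  push Not at hcon
  have h5 : Nat.card {u // h u = i} ≤ Nat.card s :=
    Nat.card_le_card_of_injective (fun u : {u // h u = i} => (⟨u.1, hcon u.1 u.2⟩ : s))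
      (fun u v huv => Subtype.ext (congrArg (fun w : s => w.1) huv))
  rw [hA, Nat.card_eq_fintype_card, Fintype.card_coe] at h5
  omega

theorem false_of_one (hU : ∃! M : Subgroup (alternatingGroup Ω), IsCoatom M ∧ P ≤ M)
    (hP3 : IsPGroup 3 P) {x : Ω} (htr : ∀ u, u ∈ orbit (P.map (alternatingGroup Ω).subtype) x)
    {a : ℕ} (hO : Nat.card (orbit (P.map (alternatingGroup Ω).subtype) x) = 3 ^ a) (ha : 3 ≤ a) : False := by
  classical
  set Q : Subgroup (Perm Ω) := P.map (alternatingGroup Ω).subtype with hQdef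
  have hQ : IsPGroup 3 Q := hP3.map _
  obtain ⟨f, hf, hWf⟩ := exists_f_one hQ x htr (c := 1) hO (by omega)
  obtain ⟨h, hh, hWh⟩ := exists_f_one hQ x htr (c := a - 1) hO (by omega)
  have hf' : ∀ i, Nat.card {u // f u = i} = 3 := fun i => by rw [hf i, pow_one]
  have ha1 : 9 ≤ 3 ^ (a - 1) := by
    calc 9 = 3 ^ 2 := by norm_num
      _ ≤ 3 ^ (a - 1) := Nat.pow_le_pow_right (by norm_num) (by omega)
  have hb : a - (a - 1) = 1 := by omega
  have hb2 : 2 ≤ 3 ^ (a - (a - 1)) := by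
    rw [hb]
    norm_num
  have h8 : Fintype.card Ω ≠ 8 := by
    rw [card_eq_mul hf']
    omega
  have hcoatf := isCoatom_Wplus h8 (by norm_num) (by omega) hf'
  have hcoath := isCoatom_Wplus h8 (by omega) hb2 hh
  have hPMf : P ≤ (W f ⊓ alternatingGroup Ω).subgroupOf (alternatingGroup Ω) := by
    intro p hp
    rw [Subgroup.mem_subgroupOf]
    have hpQ : (p : Perm Ω) ∈ Q := ⟨p, hp, rfl⟩
    exact Subgroup.mem_inf.mpr ⟨hWf hpQ, p.2⟩
  have hPMh : P ≤ (W h ⊓ alternatingGroup Ω).subgroupOf (alternatingGroup Ω) := by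
    intro p hp
    rw [Subgroup.mem_subgroupOf]
    have hpQ : (p : Perm Ω) ∈ Q := ⟨p, hp, rfl⟩
    exact Subgroup.mem_inf.mpr ⟨hWh hpQ, p.2⟩
  have heq := hU.unique ⟨hcoatf, hPMf⟩ ⟨hcoath, hPMh⟩
  obtain ⟨y, w, hyw, hfy, hfw, hyx, hwx⟩ := exists_pair_in_fibre_avoid (by norm_num) hf' x (f x)
  obtain ⟨t, hht, htn⟩ := exists_in_fibre_avoid (h := h) (i := h x) (hh (h x)) ({x, y, w} : Finset Ω)
    (lt_of_le_of_lt Finset.card_le_three (by omega))
  simp only [Finset.mem_insert, Finset.mem_singleton, not_or] at htn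
  obtain ⟨htx, hty, htw⟩ := htn
  -- `(x y w)` lies in `W f`, hence in `W h`
  have h3c := isThreeCycle_swap_mul_swap_same (Ne.symm hyx) (Ne.symm hwx) hyw
  have hcWf : swap x y * swap x w ∈ W f :=
    (W f).mul_mem (swap_mem_W f hfy.symm) (swap_mem_W f hfw.symm)
  have hcM : (⟨_, h3c.mem_alternatingGroup⟩ : alternatingGroup Ω) ∈
      (W f ⊓ alternatingGroup Ω).subgroupOf (alternatingGroup Ω) := by
    rw [Subgroup.mem_subgroupOf]
    exact Subgroup.mem_inf.mpr ⟨hcWf, h3c.mem_alternatingGroup⟩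
  rw [heq, Subgroup.mem_subgroupOf] at hcM
  have hcWh : swap x y * swap x w ∈ W h := (Subgroup.mem_inf.mp hcM).1
  have hct : (swap x y * swap x w) t = t := by
    rw [Perm.mul_apply, swap_apply_of_ne_of_ne htx htw, swap_apply_of_ne_of_ne htx hty]
  have hcx : (swap x y * swap x w) x = w := by
    rw [Perm.mul_apply, swap_apply_left, swap_apply_of_ne_of_ne hwx (Ne.symm hyw)]
  have hcw : (swap x y * swap x w) w = y := by
    rw [Perm.mul_apply, swap_apply_right, swap_apply_left]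
  have h1 := (hcWh x t).mp hht.symm
  rw [hcx, hct] at h1
  have h2 := (hcWh w t).mp h1
  rw [hcw, hct] at h2
  -- `(x y t)` lies in `W h`, hence in `W f`
  have h3d := isThreeCycle_swap_mul_swap_same (Ne.symm hyx) (Ne.symm htx) (Ne.symm hty)
  have hdWh : swap x y * swap x t ∈ W h :=
    (W h).mul_mem (swap_mem_W h (by rw [h2, hht])) (swap_mem_W h hht.symm)
  have hdM : (⟨_, h3d.mem_alternatingGroup⟩ : alternatingGroup Ω) ∈
      (W h ⊓ alternatingGroup Ω).subgroupOf (alternatingGroup Ω) := by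
    rw [Subgroup.mem_subgroupOf]
    exact Subgroup.mem_inf.mpr ⟨hdWh, h3d.mem_alternatingGroup⟩
  rw [← heq, Subgroup.mem_subgroupOf] at hdM
  have hdWf : swap x y * swap x t ∈ W f := (Subgroup.mem_inf.mp hdM).1
  have h3 := (hdWf x y).mp hfy.symm
  have hdx : (swap x y * swap x t) x = t := by
    rw [Perm.mul_apply, swap_apply_left, swap_apply_of_ne_of_ne htx hty]
  have hdy : (swap x y * swap x t) y = x := by
    rw [Perm.mul_apply, swap_apply_of_ne_of_ne hyx (Ne.symm hty), swap_apply_right]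
  rw [hdx, hdy] at h3
  -- four points in a fibre of size three
  have hsub : ({x, y, w, t} : Finset Ω) ⊆ Finset.univ.filter (fun u => f u = f x) := by
    intro u hu
    simp only [Finset.mem_insert, Finset.mem_singleton] at hu
    simp only [Finset.mem_filter, Finset.mem_univ, true_and]
    rcases hu with rfl | rfl | rfl | rfl
    · rfl
    · exact hfy
    · exact hfw
    · exact h3
  have hcard4 : ({x, y, w, t} : Finset Ω).card = 4 := by
    rw [Finset.card_insert_of_notMem, Finset.card_insert_of_notMem, Finset.card_insert_of_notMem,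
      Finset.card_singleton]
    · simp only [Finset.mem_singleton]
      exact fun h => htw h.symm
    · simp only [Finset.mem_insert, Finset.mem_singleton]
      rintro (h | h)
      · exact hyw h
      · exact hty h.symm
    · simp only [Finset.mem_insert, Finset.mem_singleton]
      rintro (h | h | h)
      · exact hyx h.symm
      · exact hwx h.symm
      · exact htx h.symm
  have h5 := Finset.card_le_card hsub
  have h6 := hf' (f x)
  rw [Nat.card_eq_fintype_card, Fintype.card_subtype] at h6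
  omega

theorem orbit_disjoint {Q : Subgroup (Perm Ω)} {x y : Ω} (h : y ∉ orbit Q x) :
    Disjoint (orbit Q x) (orbit Q y) := by
  rcases orbit.eq_or_disjoint (G := Q) x y with h1 | h1
  · exfalso
    apply h
    rw [h1]
    exact mem_orbit_self y
  · exact h1

theorem two_case (hU : ∃! M : Subgroup (alternatingGroup Ω), IsCoatom M ∧ P ≤ M)
    (hP3 : IsPGroup 3 P) (hn : 5 ≤ Nat.card Ω) {x y : Ω}
    (hcov : ∀ u, u ∈ orbit (P.map (alternatingGroup Ω).subtype) x ∨ u ∈ orbit (P.map (alternatingGroup Ω).subtype) y)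
    (hd : Disjoint (orbit (P.map (alternatingGroup Ω).subtype) x) (orbit (P.map (alternatingGroup Ω).subtype) y))
    {a b : ℕ} (hOx : Nat.card (orbit (P.map (alternatingGroup Ω).subtype) x) = 3 ^ a)
    (hOy : Nat.card (orbit (P.map (alternatingGroup Ω).subtype) y) = 3 ^ b) (hab : b ≤ a) :
    Nat.card Ω = 6 ∨ Nat.card Ω = 9 ∨ ∃ c, 2 ≤ c ∧ Nat.card Ω = 3 ^ c + 1 := by
  have hcard : Nat.card Ω = 3 ^ a + 3 ^ b := by
    have h1 : orbit (P.map (alternatingGroup Ω).subtype) x ∪ orbit (P.map (alternatingGroup Ω).subtype) y = Set.univ := by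
      ext u
      simpa using hcov u
    have h2 := Set.ncard_union_eq hd (Set.toFinite _) (Set.toFinite _)
    rw [h1, Set.ncard_univ, ← Nat.card_coe_set_eq, ← Nat.card_coe_set_eq, hOx, hOy] at h2
    exact h2
  rcases Nat.eq_zero_or_pos b with rfl | hb
  · right; right
    rw [pow_zero] at hcard
    refine ⟨a, ?_, hcard⟩
    by_contra h
    have : a = 0 ∨ a = 1 := by omega
    rcases this with rfl | rfl
    · rw [pow_zero] at hcard
      omega
    · rw [pow_one] at hcard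
      omega
  · by_cases ha : 2 ≤ a
    · exfalso
      exact false_of_two hU hP3 hcov (fun u h1 h2 => Set.disjoint_left.mp hd h1 h2) hOx hOy ha hb
    · left
      have h1 : a = 1 := by omega
      have h2 : b = 1 := by omega
      subst h1 h2
      rw [hcard]
      norm_num

/-- The main combinatorial theorem. -/
theorem allowed (hn : 5 ≤ Nat.card Ω) (hP3 : IsPGroup 3 P)
    (hU : ∃! M : Subgroup (alternatingGroup Ω), IsCoatom M ∧ P ≤ M) :
    Nat.card Ω = 6 ∨ Nat.card Ω = 9 ∨ ∃ c, 2 ≤ c ∧ Nat.card Ω = 3 ^ c + 1 := by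
  classical
  set Q : Subgroup (Perm Ω) := P.map (alternatingGroup Ω).subtype with hQdef
  have hQ : IsPGroup 3 Q := hP3.map _
  haveI : Nonempty Ω := by
    by_contra h
    rw [not_nonempty_iff] at h
    simp at hn
  obtain ⟨x⟩ := ‹Nonempty Ω›
  obtain ⟨a, hOx⟩ := card_orbit_pow hQ x
  by_cases h1 : ∀ u, u ∈ orbit Q x
  · have hcard : Nat.card Ω = 3 ^ a := by
      rw [← hOx]
      exact (Nat.card_congr (Equiv.subtypeUnivEquiv h1)).symm
    by_cases ha : 3 ≤ a
    · exfalso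
      exact false_of_one hU hP3 h1 hOx ha
    · have h2 : a = 0 ∨ a = 1 ∨ a = 2 := by omega
      rcases h2 with rfl | rfl | rfl
      · rw [pow_zero] at hcard
        omega
      · rw [pow_one] at hcard
        omega
      · right; left
        rw [hcard]
        norm_num
  · push Not at h1
    obtain ⟨y, hy⟩ := h1
    have hdxy := orbit_disjoint hy
    obtain ⟨b, hOy⟩ := card_orbit_pow hQ y
    by_cases h2 : ∀ u, u ∈ orbit Q x ∨ u ∈ orbit Q y
    · rcases le_total b a with hab | hab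
      · exact two_case hU hP3 hn h2 hdxy hOx hOy hab
      · exact two_case hU hP3 hn (fun u => (h2 u).symm) hdxy.symm hOy hOx hab
    · exfalso
      push Not at h2
      obtain ⟨z, hz1, hz2⟩ := h2
      exact false_of_three hU hn (s₁ := orbit Q x) (s₂ := orbit Q y) (s₃ := orbit Q z)
        ⟨x, mem_orbit_self x⟩ ⟨y, mem_orbit_self y⟩ ⟨z, mem_orbit_self z⟩ hdxy
        (orbit_disjoint hz1) (orbit_disjoint hz2) (le_stab_orbit x) (le_stab_orbit y) (le_stab_orbit z)

end main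

end Cfsg.Agent.Lib.AltBlocks
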