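import Mathlib
import Cfsg.Agent.Lib.PrimeCycleJ
import Cfsg.Agent.Lib.SylvesterSchur

set_option autoImplicit false
set_option linter.style.haveILetI false
set_option linter.unusedSectionVars false
set_option linter.unusedVariables false

namespace Cfsg.Agent.Lib.AltLargestPrime

open Equiv Equiv.Perm MulAction
open scoped Nat Pointwise

variable {α : Type*} [Fintype α] [DecidableEq α]

/-- Lucas consequence: for `k < r`, `r ∣ C(m,k)` iff `m % r < k`. -/
theorem dvd_choose_iff {r m k : ℕ} (hr : r.Prime) (hk : k < r) :
    r ∣ m.choose k ↔ m % r < k := by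
  haveI := Fact.mk hr
  have h := Choose.choose_modEq_choose_mod_mul_choose_div_nat (n := m) (k := k) (p := r)
  rw [Nat.mod_eq_of_lt hk, Nat.div_eq_of_lt hk, Nat.choose_zero_right, mul_one] at h
  rw [h.dvd_iff dvd_rfl]
  constructor
  · intro hd
    by_contra hlt
    push_neg at hlt
    have h1 : (m % r).choose k ∣ (m % r)! := by
      have := Nat.choose_mul_factorial_mul_factorial hlt
      exact ⟨k ! * (m % r - k)!, by rw [← this]; ring⟩
    have h2 := (hr.dvd_factorial).1 (hd.trans h1)
    have := Nat.mod_lt m hr.pos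
    omega
  · intro h'
    rw [Nat.choose_eq_zero_of_lt h']
    exact dvd_zero _

/-- A permutation with `z ^ r = 1`, `r` prime, stabilizing a set with fewer than `r` points fixes
that set pointwise. -/
theorem fix_of_small {z : Perm α} {r : ℕ} (hr : r.Prime) (hz : z ^ r = 1) (D : Finset α)
    (hD : ∀ a, z a ∈ D ↔ a ∈ D) (hk : D.card < r) : ∀ a ∈ D, z a = a := by
  classical
  set z' : Perm {a // a ∈ D} := z.subtypePerm hD with hz'
  have h1 : z' ^ r = 1 := by
    ext a
    have : ((z' ^ r) a : α) = (z ^ r) (a : α) := by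
      rw [hz', subtypePerm_pow, subtypePerm_apply]
    rw [this, hz]
    simp
  have h2 : orderOf z' ∣ r := orderOf_dvd_of_pow_eq_one h1
  have h3 : orderOf z' ∣ (D.card)! := by
    have := orderOf_dvd_card (x := z')
    rwa [Fintype.card_perm, Fintype.card_coe] at this
  have h4 : orderOf z' = 1 := by
    refine (hr.eq_one_or_self_of_dvd _ h2).resolve_right fun h => ?_
    rw [h] at h3
    have := (hr.dvd_factorial).1 h3
    omega
  have h5 : z' = 1 := orderOf_eq_one_iff.1 h4
  intro a ha
  have := congrArg (fun f : Perm {a // a ∈ D} => ((f ⟨a, ha⟩ : {a // a ∈ D}) : α)) h5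
  simpa [hz'] using this

/-- Jordan plus simplicity of the alternating group: a subset normalized by a primitive group and
containing a suitable even prime cycle contains the alternating group. -/
theorem alt_le_of_normal_cycle {β : Type*} [Fintype β] [DecidableEq β] (H E : Subgroup (Perm β))
    (hnorm : ∀ h ∈ H, ∀ e ∈ E, h * e * h⁻¹ ∈ E) (hprim : IsPreprimitive H β) (z : Perm β)
    (hzH : z ∈ H) (hzE : z ∈ E) (s : ℕ) (hzt : z.cycleType = {s}) (hs : s.Prime)
    (hz3 : s + 3 ≤ Fintype.card β ∨ s = 3) (hzodd : z ∈ alternatingGroup β)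
    (h5 : 5 ≤ Fintype.card β) : alternatingGroup β ≤ E := by
  have hzc : z.IsCycle := by
    rw [← card_cycleType_eq_one, hzt]; simp
  have hzs : z.support.card = s := by
    rw [← sum_cycleType, hzt]; simp
  have hAH : alternatingGroup β ≤ H := by
    rcases hz3 with h | rfl
    · exact PrimeCycleJ.alternatingGroup_le_of_prime_cycle hprim hzH hzc (hzs ▸ hs)
        (hzs ▸ h)
    · exact alternatingGroup_le_of_isPreprimitive_of_isThreeCycle_mem hprim hzt hzH
  haveI : IsSimpleGroup (alternatingGroup β) :=
    alternatingGroup.isSimpleGroup (by simpa using h5)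
  let N : Subgroup (alternatingGroup β) := E.subgroupOf (alternatingGroup β)
  haveI hN : N.Normal := ⟨fun n hn g => hnorm g (hAH g.2) n hn⟩
  rcases hN.eq_bot_or_eq_top with h | h
  · exfalso
    have hzN : (⟨z, hzodd⟩ : alternatingGroup β) ∈ N := hzE
    rw [h, Subgroup.mem_bot] at hzN
    have hz1 : z = 1 := congrArg Subtype.val hzN
    rw [hz1, cycleType_one] at hzt
    simp at hzt
  · intro a ha
    have : (⟨a, ha⟩ : alternatingGroup β) ∈ N := h ▸ Subgroup.mem_top _
    exact this

section Res

variable (K : Subgroup (Perm α)) (P : α → Prop) [DecidablePred P]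

/-- The restriction of `K` to a `K`-invariant predicate. -/
def resHom (hP : ∀ g ∈ K, ∀ x, P (g x) ↔ P x) : K →* Perm {a // P a} where
  toFun g := (g : Perm α).subtypePerm (hP g g.2)
  map_one' := by ext; simp
  map_mul' := by intro g h; ext x; rfl

@[simp] theorem resHom_apply (hP : ∀ g ∈ K, ∀ x, P (g x) ↔ P x) (g : K) (a : {a // P a}) :
    ((resHom K P hP g a : {a // P a}) : α) = (g : Perm α) a := rfl

theorem prim_res (hP : ∀ g ∈ K, ∀ x, P (g x) ↔ P x) (htr : ∀ a b, P a → P b → ∃ g ∈ K, g a = b)
    (c : Perm α) (hc : c ∈ K) (hp : (orderOf c).Prime) (w : α) (hw : P w) (hcw : c w ≠ w)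
    (h2 : Fintype.card α < 2 * orderOf c) :
    IsPreprimitive (resHom K P hP).range {a // P a} := by
  classical
  set H := (resHom K P hP).range with hH
  set c' : Perm {a // P a} := resHom K P hP ⟨c, hc⟩ with hc'
  have hc'H : c' ∈ H := ⟨_, rfl⟩
  let a : {a // P a} := ⟨w, hw⟩
  have hord : orderOf c' = orderOf c := by
    haveI := Fact.mk hp
    apply orderOf_eq_prime
    · rw [hc', ← map_pow]
      have : (⟨c, hc⟩ : K) ^ orderOf c = 1 := by
        ext x
        simp [pow_orderOf_eq_one]
      rw [this, map_one]
    · intro h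
      apply hcw
      have := congrArg (fun f : Perm {a // P a} => ((f a : {a // P a}) : α)) h
      simpa [hc', a] using this
  haveI : IsPretransitive H {a // P a} := by
    refine ⟨fun x y => ?_⟩
    obtain ⟨g, hg, hgx⟩ := htr x y x.2 y.2
    refine ⟨⟨resHom K P hP ⟨g, hg⟩, ⟨_, rfl⟩⟩, ?_⟩
    apply Subtype.ext
    exact hgx
  let C : H := ⟨c', hc'H⟩
  have hCord : orderOf C = orderOf c := by
    rw [← hord, Subgroup.orderOf_mk]
  let Z : Subgroup H := Subgroup.zpowers C
  have hZc : Nat.card Z = orderOf c := by
    rw [Nat.card_zpowers, hCord]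
  let X := orbit Z a
  have hX : Nat.card X = orderOf c := by
    have h1 := card_orbit_mul_card_stabilizer_eq_card_group Z a
    have hd : Nat.card X ∣ orderOf c := by
      rw [← hZc]
      exact ⟨Nat.card (stabilizer Z a), by simpa [Nat.card_eq_fintype_card] using h1.symm⟩
    refine (hp.eq_one_or_self_of_dvd _ hd).resolve_left fun h1' => ?_
    -- the orbit is a singleton, but `c` moves `a`
    have h3 : Nat.card X = 1 := h1'
    haveI : Finite X := inferInstance
    have h4 : Subsingleton X := (Nat.card_eq_one_iff_unique.1 h3).1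
    have hmem1 : a ∈ X := mem_orbit_self a
    have hmem2 : (⟨C, Subgroup.mem_zpowers C⟩ : Z) • a ∈ X := mem_orbit _ _
    have := congrArg Subtype.val (h4.elim ⟨_, hmem1⟩ ⟨_, hmem2⟩)
    apply hcw
    have h6 := congrArg (Subtype.val) this
    exact h6.symm
  haveI : IsPreprimitive Z X := IsPreprimitive.of_prime_card (by rw [hX]; exact hp)
  let f : X →ₑ[(Subtype.val : Z → H)] {a // P a} := ⟨Subtype.val, fun g x => rfl⟩
  refine IsPreprimitive.of_card_lt (f := f) ?_
  have hr : (Set.range f).ncard = Nat.card X := by
    rw [← Nat.card_coe_set_eq]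
    apply Nat.card_range_of_injective
    exact Subtype.val_injective
  rw [hr, hX]
  refine lt_of_le_of_lt ?_ h2
  rw [Nat.card_eq_fintype_card]
  exact Fintype.card_subtype_le _


/-- If the restriction of `K` to `P` is primitive and `K` contains a suitable even prime cycle
supported on `P`, then `K` contains the alternating group on `P`, extended by the identity. -/
theorem ofSubtype_alt_mem (hP : ∀ g ∈ K, ∀ x, P (g x) ↔ P x)
    (hprim : IsPreprimitive (resHom K P hP).range {a // P a})
    (z : Perm α) (hz : z ∈ K) (s : ℕ) (hzt : z.cycleType = {s}) (hs : s.Prime)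
    (hzP : ∀ a, ¬ P a → z a = a) (hz3 : s + 3 ≤ Fintype.card {a // P a} ∨ s = 3)
    (hzodd : z ∈ alternatingGroup α) (h5 : 5 ≤ Fintype.card {a // P a}) :
    ∀ σ ∈ alternatingGroup {a // P a}, ofSubtype σ ∈ K := by
  let E : Subgroup (Perm {a // P a}) := K.comap ofSubtype
  let z' : Perm {a // P a} := resHom K P hP ⟨z, hz⟩
  have hzz' : ofSubtype z' = z := by
    refine ofSubtype_subtypePerm (hP z hz) (fun x hx => ?_)
    by_contra h
    exact hx (hzP x h)
  have hzt' : z'.cycleType = {s} := by
    rw [← cycleType_ofSubtype (g := z'), hzz', hzt]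
  have hsign : z' ∈ alternatingGroup {a // P a} := by
    rw [mem_alternatingGroup, ← sign_ofSubtype, hzz']
    exact hzodd
  have hzE : z' ∈ E := by
    change ofSubtype z' ∈ K
    rw [hzz']; exact hz
  have hnorm : ∀ h ∈ (resHom K P hP).range, ∀ e ∈ E, h * e * h⁻¹ ∈ E := by
    rintro h ⟨⟨g, hg⟩, rfl⟩ e he
    change ofSubtype _ ∈ K
    have : ofSubtype (resHom K P hP ⟨g, hg⟩ * e * (resHom K P hP ⟨g, hg⟩)⁻¹)
        = g * ofSubtype e * g⁻¹ := by
      ext a
      rw [← map_inv]
      by_cases ha : P a
      · have ha' : P (g⁻¹ a) := (hP g⁻¹ (K.inv_mem hg) a).2 ha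
        rw [ofSubtype_apply_of_mem _ ha]
        simp only [Perm.mul_apply]
        rw [ofSubtype_apply_of_mem _ ha']
        rfl
      · have ha' : ¬ P (g⁻¹ a) := fun h' => ha ((hP g⁻¹ (K.inv_mem hg) a).1 h')
        rw [ofSubtype_apply_of_not_mem _ ha]
        simp only [Perm.mul_apply]
        rw [ofSubtype_apply_of_not_mem _ ha']
        simp
    rw [this]
    exact K.mul_mem (K.mul_mem hg he) (K.inv_mem hg)
  have := alt_le_of_normal_cycle _ E hnorm hprim z' ⟨_, rfl⟩ hzE s hzt' hs hz3 hsign h5
  intro σ hσ
  exact this hσ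

/-- Counting consequence of `ofSubtype_alt_mem`. -/
theorem count_of_ofSubtype (hK : ∀ σ ∈ alternatingGroup {a // P a}, ofSubtype σ ∈ K)
    (h2 : 2 ≤ Fintype.card {a // P a}) (I : ℕ)
    (hI : I * Nat.card K = Nat.card (alternatingGroup α)) :
    ∃ j, I * j = (Fintype.card α).choose (Fintype.card {a // ¬ P a}) *
      (Fintype.card {a // ¬ P a})! := by
  have hk : Fintype.card {a // P a} + Fintype.card {a // ¬ P a} = Fintype.card α := by
    rw [Fintype.card_subtype_compl]
    have := Fintype.card_subtype_le P
    omega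
  haveI : Nontrivial {a // P a} := Fintype.one_lt_card_iff_nontrivial.1 (by omega)
  haveI : Nontrivial α := Fintype.one_lt_card_iff_nontrivial.1 (by omega)
  let L : Subgroup (Perm α) := (alternatingGroup {a // P a}).map ofSubtype
  have hLK : L ≤ K := by
    rintro _ ⟨σ, hσ, rfl⟩
    exact hK σ hσ
  have hLc : Nat.card L = Nat.card (alternatingGroup {a // P a}) :=
    Subgroup.card_map_of_injective ofSubtype_injective
  obtain ⟨j, hj⟩ : Nat.card L ∣ Nat.card K := Subgroup.card_dvd_of_le hLK
  refine ⟨j, ?_⟩
  set k := Fintype.card {a // ¬ P a}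
  set o := Fintype.card {a // P a}
  have h3 : 2 * Nat.card (alternatingGroup {a // P a}) = o ! := by
    rw [two_mul_nat_card_alternatingGroup, Nat.card_perm, Nat.card_eq_fintype_card]
  have h4 : 2 * Nat.card (alternatingGroup α) = (Fintype.card α)! := by
    rw [two_mul_nat_card_alternatingGroup, Nat.card_perm, Nat.card_eq_fintype_card]
  have h5 := Nat.choose_mul_factorial_mul_factorial (show k ≤ Fintype.card α by omega)
  have h6 : Fintype.card α - k = o := by omega
  rw [h6] at h5
  have h7 : 0 < o ! := Nat.factorial_pos _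
  have h8 : (I * j) * o ! = ((Fintype.card α).choose k * k !) * o ! := by
    rw [h5, ← h4, ← hI, hj, hLc, ← h3]
    ring
  exact Nat.eq_of_mul_eq_mul_right h7 h8

end Res

/-- `K` stabilizing a `k`-subset forces `C(m,k) ∣ I`. -/
theorem choose_dvd_index (K : Subgroup (Perm α)) (hK : K ≤ alternatingGroup α) (I : ℕ)
    (hI : I * Nat.card K = Nat.card (alternatingGroup α)) (D : Finset α)
    (hD : ∀ g ∈ K, ∀ a, g a ∈ D ↔ a ∈ D) (h3 : 3 ≤ Fintype.card α) :
    (Fintype.card α).choose D.card ∣ I := by
  haveI := Set.powersetCard.isPretransitive_alternatingGroup (α := α) (n := D.card)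
    (by simpa using h3)
  let s₀ : Set.powersetCard α D.card := ⟨D, rfl⟩
  let A := alternatingGroup α
  have h1 : (stabilizer A s₀).index = (Fintype.card α).choose D.card := by
    rw [index_stabilizer, orbit_eq_univ, Set.ncard_univ, Set.powersetCard.card,
      Nat.card_eq_fintype_card]
  have h2 := (stabilizer A s₀).index_mul_card
  rw [h1] at h2
  let K' : Subgroup A := K.subgroupOf A
  have hK'c : Nat.card K' = Nat.card K :=
    Nat.card_congr (Subgroup.subgroupOfEquivOfLe hK).toEquiv
  have hle : K' ≤ stabilizer A s₀ := by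
    intro g hg
    have hg' : (g : Perm α) ∈ K := hg
    rw [mem_stabilizer_iff]
    apply Subtype.ext
    have hcs : ((g • s₀ : Set.powersetCard α D.card) : Finset α) = g • (D : Finset α) :=
      Set.powersetCard.coe_smul
    rw [hcs]
    ext a
    rw [Finset.mem_smul_finset]
    constructor
    · rintro ⟨b, hb, rfl⟩
      exact (hD _ hg' b).2 hb
    · intro ha
      refine ⟨(g : Perm α)⁻¹ a, ?_, ?_⟩
      · exact (hD _ hg' _).1 (by simpa using ha)
      · change (g : Perm α) ((g : Perm α)⁻¹ a) = a
        simp
  obtain ⟨t, ht⟩ : Nat.card K' ∣ Nat.card (stabilizer A s₀) := Subgroup.card_dvd_of_le hle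
  have hpos : 0 < Nat.card K := Nat.card_pos
  refine ⟨t, ?_⟩
  have : I * Nat.card K = ((Fintype.card α).choose D.card * t) * Nat.card K := by
    rw [hI, ← h2, ht, hK'c]; ring
  exact Nat.eq_of_mul_eq_mul_right hpos this

/-- A `q`-element with `q` not dividing the index has a conjugate in `K`. -/
theorem exists_conj_mem_of_not_dvd (K : Subgroup (Perm α)) (hK : K ≤ alternatingGroup α) (I : ℕ)
    (hI : I * Nat.card K = Nat.card (alternatingGroup α)) {q : ℕ} (hq : q.Prime) (hqI : ¬ q ∣ I)
    (t : Perm α) (ht : t ∈ alternatingGroup α) (htq : t ^ q = 1) :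
    ∃ a ∈ alternatingGroup α, a * t * a⁻¹ ∈ K := by
  haveI := Fact.mk hq
  let A := alternatingGroup α
  let K' : Subgroup A := K.subgroupOf A
  have hK'c : Nat.card K' = Nat.card K :=
    Nat.card_congr (Subgroup.subgroupOfEquivOfLe hK).toEquiv
  have hidx : K'.index = I := by
    have h2 := K'.index_mul_card
    rw [hK'c, ← hI] at h2
    exact Nat.eq_of_mul_eq_mul_right Nat.card_pos h2
  let t' : A := ⟨t, ht⟩
  have ht'q : t' ^ q = 1 := by
    apply Subtype.ext
    simpa [t'] using htq
  have hpg : IsPGroup q (Subgroup.zpowers t') := by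
    rintro ⟨g, n, rfl⟩
    refine ⟨1, ?_⟩
    apply Subtype.ext
    simp only [pow_one, Subgroup.coe_pow, Subgroup.coe_one]
    rw [← zpow_natCast, ← zpow_mul, mul_comm, zpow_mul, zpow_natCast, ht'q, one_zpow]
  have hnd : ¬ q ∣ Nat.card (A ⧸ K') := by
    rw [← Subgroup.index_eq_card, hidx]; exact hqI
  obtain ⟨x, hx⟩ := hpg.nonempty_fixed_point_of_prime_not_dvd_card (α := A ⧸ K') hnd
  obtain ⟨g, rfl⟩ := QuotientGroup.mk_surjective x
  have h1 : (⟨t', Subgroup.mem_zpowers t'⟩ : Subgroup.zpowers t') • ((g : A) : A ⧸ K') = g := hx _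
  have h2 : ((t' * g : A) : A ⧸ K') = g := h1
  rw [QuotientGroup.eq] at h2
  refine ⟨((g⁻¹ : A) : Perm α), (g⁻¹ : A).2, ?_⟩
  have h3 : g⁻¹ * (t' * g) ∈ K' := by
    have := K'.inv_mem h2
    simpa using this
  have h4 : ((g⁻¹ * (t' * g) : A) : Perm α) ∈ K := h3
  have h5 : ((g⁻¹ * (t' * g) : A) : Perm α) = ((g⁻¹ : A) : Perm α) * t * ((g⁻¹ : A) : Perm α)⁻¹ := by
    simp [t', mul_assoc]
  rw [← h5]
  exact h4


/-- Permutations of uniform cycle type exist. -/
theorem exists_replicate {q r : ℕ} (hr : 2 ≤ r) (h : q * r ≤ Fintype.card α) :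
    ∃ x : Perm α, x.cycleType = Multiset.replicate q r := by
  rw [exists_with_cycleType_iff]
  constructor
  · simpa using h
  · intro a ha
    rw [Multiset.eq_of_mem_replicate ha]
    exact hr

theorem orderOf_of_replicate {x : Perm α} {q r : ℕ} (hq : q ≠ 0)
    (hx : x.cycleType = Multiset.replicate q r) : orderOf x = r := by
  rw [← lcm_cycleType, hx]
  apply Nat.dvd_antisymm
  · apply Multiset.lcm_dvd.2
    intro b hb
    rw [Multiset.eq_of_mem_replicate hb]
  · apply Multiset.dvd_lcm
    exact Multiset.mem_replicate.2 ⟨hq, rfl⟩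

theorem mem_alt_of_replicate {x : Perm α} {q r : ℕ} (hx : x.cycleType = Multiset.replicate q r)
    (h : Odd r ∨ Even q) : x ∈ alternatingGroup α := by
  rw [mem_alternatingGroup, sign_of_cycleType, hx]
  simp only [Multiset.sum_replicate, Multiset.card_replicate, smul_eq_mul]
  apply Even.neg_one_pow
  rcases h with h | h
  · rw [show q * r + q = q * (r + 1) by ring]
    exact (h.add_one).mul_left q
  · exact (h.mul_right r).add h

/-- The group theoretic core for alternating groups. -/
theorem core (hα : 5 ≤ Fintype.card α) (K : Subgroup (Perm α)) (hK : K ≤ alternatingGroup α)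
    (I r : ℕ) (hI : I * Nat.card K = Nat.card (alternatingGroup α)) (hr : r.Prime) (hrI : r ∣ I)
    (hmax : ∀ s : ℕ, s.Prime → s ∣ I → s ≤ r) :
    ∃ x ∈ alternatingGroup α, orderOf x = r ∧ ∀ y : Perm α, y * x * y⁻¹ ∉ K := by
  classical
  set m := Fintype.card α with hm
  haveI : Nontrivial α := Fintype.one_lt_card_iff_nontrivial.1 (by omega)
  have hfact : 2 * (I * Nat.card K) = m ! := by
    rw [hI, two_mul_nat_card_alternatingGroup, Nat.card_perm, Nat.card_eq_fintype_card]
  have hord_conj : ∀ (x y : Perm α), orderOf (y * x * y⁻¹) = orderOf x := by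
    intro x y
    rw [← lcm_cycleType, ← lcm_cycleType, cycleType_conj]
  have hr2 := hr.two_le
  by_cases hm2 : m < 2 * r
  · -- few multiples of `r`
    have hrA : r ∣ Nat.card (alternatingGroup α) := by
      rw [← hI]; exact hrI.mul_right _
    haveI := Fact.mk hr
    obtain ⟨x, hx⟩ := exists_prime_orderOf_dvd_card' r hrA
    have hxo : orderOf (x : Perm α) = r := by
      rw [← hx]; exact Subgroup.orderOf_coe x
    refine ⟨x, x.2, hxo, fun y hy => ?_⟩
    have hrK : r ∣ Nat.card K := by
      have h1 : orderOf (⟨y * x * y⁻¹, hy⟩ : K) = r := by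
        rw [Subgroup.orderOf_mk, hord_conj, hxo]
      rw [← h1]
      exact orderOf_dvd_natCard _
    have h2 : r ^ 2 ∣ m ! := by
      rw [← hfact, sq]
      exact Dvd.dvd.mul_left (mul_dvd_mul hrI hrK) 2
    have hlog : Nat.log r m < 2 := by
      apply Nat.log_lt_of_lt_pow (by omega)
      nlinarith
    rw [hr.pow_dvd_factorial_iff hlog] at h2
    have h3 : m / r < 2 := Nat.div_lt_of_lt_mul (by omega)
    simp at h2
    omega
  · push_neg at hm2
    obtain ⟨p, hp, hp1, hp2⟩ := Nat.exists_prime_lt_and_le_two_mul (m / 2) (by omega)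
    have hpm : p ≤ m := by omega
    have h2p : m < 2 * p := by omega
    have hrp : r < p := by omega
    have hpI : ¬ p ∣ I := fun h => by
      have := hmax p hp h
      omega
    have hpK : p ∣ Nat.card K := by
      have h1 : p ∣ m ! := hp.dvd_factorial.2 hpm
      rw [← hfact] at h1
      rcases (hp.dvd_mul).1 h1 with h | h
      · have := Nat.le_of_dvd (by norm_num) h
        omega
      · rcases (hp.dvd_mul).1 h with h | h
        · exact absurd h hpI
        · exact h
    haveI := Fact.mk hp
    obtain ⟨c₀, hc₀⟩ := exists_prime_orderOf_dvd_card' p hpK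
    set c : Perm α := (c₀ : Perm α) with hcdef
    have hcK : c ∈ K := c₀.2
    have hco : orderOf c = p := by
      rw [← hc₀]; exact Subgroup.orderOf_coe c₀
    have hccyc : c.IsCycle := isCycle_of_prime_order' (by rw [hco]; exact hp) (by rw [hco]; exact h2p)
    obtain ⟨w, hw⟩ : ∃ w, c w ≠ w := by
      by_contra hcon
      push_neg at hcon
      have : c = 1 := by
        ext a
        simp [hcon a]
      rw [this, orderOf_one] at hco
      exact hp.one_lt.ne hco
    let P : α → Prop := fun a => ∃ g ∈ K, g w = a
    have hP : ∀ g ∈ K, ∀ x, P (g x) ↔ P x := by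
      intro g hg x
      constructor
      · rintro ⟨h, hh, e⟩
        refine ⟨g⁻¹ * h, K.mul_mem (K.inv_mem hg) hh, ?_⟩
        rw [Perm.mul_apply, e]
        simp
      · rintro ⟨h, hh, e⟩
        refine ⟨g * h, K.mul_mem hg hh, ?_⟩
        rw [Perm.mul_apply, e]
    have htr : ∀ a b, P a → P b → ∃ g ∈ K, g a = b := by
      rintro a b ⟨g, hg, rfl⟩ ⟨h, hh, rfl⟩
      refine ⟨h * g⁻¹, K.mul_mem hh (K.inv_mem hg), ?_⟩
      simp
    have hPw : P w := ⟨1, K.one_mem, rfl⟩
    have hprim := prim_res K P hP htr c hcK (by rw [hco]; exact hp) w hPw hw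
      (by rw [hco]; exact h2p)
    let D : Finset α := Finset.univ.filter (fun a => ¬ P a)
    set k := D.card with hk
    have hkc : Fintype.card {a // ¬ P a} = k := by
      rw [hk, Fintype.card_subtype]
    have hkO : Fintype.card {a // P a} + k = m := by
      rw [← hkc, Fintype.card_subtype_compl]
      have := Fintype.card_subtype_le P
      omega
    have hsupp : ∀ a, c a ≠ a → P a := by
      intro a ha
      obtain ⟨i, hi⟩ := hccyc.exists_pow_eq hw ha
      exact ⟨c ^ i, K.pow_mem hcK i, hi⟩
    have hpO : p ≤ Fintype.card {a // P a} := by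
      have h1 : c.support.card = p := by rw [← hccyc.orderOf, hco]
      rw [← h1, Fintype.card_subtype]
      apply Finset.card_le_card
      intro a ha
      simp only [Finset.mem_filter, Finset.mem_univ, true_and]
      exact hsupp a (mem_support.1 ha)
    have hk2 : 2 * k < m := by omega
    have hDinv : ∀ g ∈ K, ∀ a, g a ∈ D ↔ a ∈ D := by
      intro g hg a
      simp only [D, Finset.mem_filter, Finset.mem_univ, true_and, not_iff_not]
      exact hP g hg a
    have hchoose : m.choose k ∣ I := choose_dvd_index K hK I hI D hDinv (by omega)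
    have hkr : k < r := by
      rcases Nat.eq_zero_or_pos k with h | h
      · rw [h]; exact hr.pos
      · obtain ⟨q, hq, hkq, hqd⟩ := SylvesterSchur.sylvester_schur h (show 2 * k ≤ m by omega)
        have := hmax q hq (hqd.trans hchoose)
        omega
    have hfixD : ∀ z ∈ K, z ^ r = 1 → ∀ a, ¬ P a → z a = a := by
      intro z hz hzr a ha
      exact fix_of_small hr hzr D (hDinv z hz) hkr a (by simpa [D] using ha)
    -- The conclusion of the Jordan argument
    have hJ : ∀ (z : Perm α) (s : ℕ), z ∈ K → z.cycleType = {s} → s.Prime →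
        (∀ a, ¬ P a → z a = a) → (s + 3 ≤ Fintype.card {a // P a} ∨ s = 3) →
        z ∈ alternatingGroup α → 5 ≤ Fintype.card {a // P a} → r ∣ m.choose k * k ! := by
      intro z s hz hzt hs hzP hz3 hzodd h5
      have h1 := ofSubtype_alt_mem K P hP hprim z hz s hzt hs hzP hz3 hzodd h5
      obtain ⟨j, hj⟩ := count_of_ofSubtype K P h1 (by omega) I hI
      rw [hkc] at hj
      rw [← hm] at hj
      rw [← hj]
      exact hrI.mul_right j
    -- The first case: a uniform cycle type
    have hE1 : m % r < k → (Odd r ∨ Even (m / r)) →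
        ∃ x ∈ alternatingGroup α, orderOf x = r ∧ ∀ y : Perm α, y * x * y⁻¹ ∉ K := by
      intro hb hpar
      have hq0 : m / r ≠ 0 := by
        have : 2 ≤ m / r := (Nat.le_div_iff_mul_le hr.pos).2 hm2
        omega
      obtain ⟨x, hx⟩ := exists_replicate (α := α) hr2 (q := m / r) (Nat.div_mul_le_self m r)
      have hxo := orderOf_of_replicate hq0 hx
      refine ⟨x, mem_alt_of_replicate hx hpar, hxo, fun y hy => ?_⟩
      set z := y * x * y⁻¹ with hz
      have hzr : z ^ r = 1 := by
        rw [← hord_conj x y, ← hz] at hxo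
        rw [← hxo]
        exact pow_orderOf_eq_one z
      have hfix := hfixD z hy hzr
      have hsupp : z.support.card = m / r * r := by
        rw [← sum_cycleType, hz, cycleType_conj, hx]
        simp
      have hdisj : Disjoint z.support D := by
        rw [Finset.disjoint_left]
        intro a ha haD
        exact (mem_support.1 ha) (hfix a (by simpa [D] using haD))
      have hcard : z.support.card + D.card ≤ m := by
        rw [← Finset.card_union_of_disjoint hdisj]
        exact Finset.card_le_univ _
      have hdm := Nat.div_add_mod' m r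
      rw [hsupp] at hcard
      omega
    by_cases hr22 : r = 2
    · subst hr22
      by_cases hk0 : k = 0
      · exfalso
        obtain ⟨t, ht⟩ := exists_replicate (α := α) (q := 1) (r := 3) (by norm_num) (by omega)
        have hto := orderOf_of_replicate (by norm_num) ht
        have htA := mem_alt_of_replicate ht (Or.inl (by decide))
        have h3I : ¬ 3 ∣ I := fun h => by
          have := hmax 3 Nat.prime_three h
          omega
        obtain ⟨a, -, ha⟩ := exists_conj_mem_of_not_dvd K hK I hI Nat.prime_three h3I t htA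
          (by rw [← hto]; exact pow_orderOf_eq_one t)
        have hP' : ∀ b, P b := by
          intro b
          by_contra hb
          have : b ∈ D := by simpa [D] using hb
          have hD0 : D = ∅ := Finset.card_eq_zero.1 hk0
          rw [hD0] at this
          simp at this
        have hcz : (a * t * a⁻¹).cycleType = {3} := by
          rw [cycleType_conj, ht]; rfl
        have h1 := hJ (a * t * a⁻¹) 3 ha hcz Nat.prime_three (fun b hb => absurd (hP' b) hb)
          (Or.inr rfl) (by
            rw [mem_alternatingGroup, sign_of_cycleType, hcz]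
            simp
            decide) (by omega)
        rw [hk0] at h1
        simp at h1
      · have hk1 : k = 1 := by omega
        rw [hk1, Nat.choose_one_right] at hchoose
        have hpow : m = 2 ^ m.primeFactorsList.length := by
          apply Nat.eq_prime_pow_of_unique_prime_dvd (by omega)
          intro d hd hdm
          have := hmax d hd (hdm.trans hchoose)
          have := hd.two_le
          omega
        set e := m.primeFactorsList.length with he
        have he2 : 2 ≤ e := by
          by_contra hlt
          have : e = 0 ∨ e = 1 := by omega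
          rcases this with h | h <;> rw [h] at hpow <;> omega
        have h4 : 4 ∣ m := by
          rw [hpow]
          exact pow_dvd_pow 2 he2
        have hb : m % 2 < k := by omega
        refine hE1 hb (Or.inr ?_)
        obtain ⟨t, ht⟩ := h4
        refine ⟨t, ?_⟩
        omega
    · have hrodd : Odd r := hr.odd_of_ne_two hr22
      by_cases hrd : r ∣ m.choose k
      · exact hE1 ((dvd_choose_iff hr hkr).1 hrd) (Or.inl hrodd)
      · have hb : k ≤ m % r := by
          by_contra hlt
          exact hrd ((dvd_choose_iff hr hkr).2 (by omega))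
        have hr3 : 3 ≤ r := by
          have := hr.two_le
          omega
        obtain ⟨x, hx⟩ := exists_replicate (α := α) hr2 (q := 1) (by omega)
        have hxo := orderOf_of_replicate (by norm_num) hx
        refine ⟨x, mem_alt_of_replicate hx (Or.inl hrodd), hxo, fun y hy => hrd ?_⟩
        set z := y * x * y⁻¹ with hz
        have hzr : z ^ r = 1 := by
          rw [← hord_conj x y, ← hz] at hxo
          rw [← hxo]
          exact pow_orderOf_eq_one z
        have hcz : z.cycleType = {r} := by
          rw [hz, cycleType_conj, hx]; rfl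
        have hbig : 2 * r ≤ Fintype.card {a // P a} := by
          have h1 : 2 ≤ m / r := (Nat.le_div_iff_mul_le hr.pos).2 hm2
          have hdm := Nat.div_add_mod' m r
          nlinarith
        have h1 := hJ z r hy hcz hr (hfixD z hy hzr) (Or.inl (by omega))
          (by
            rw [mem_alternatingGroup, sign_of_cycleType, hcz]
            simp
            exact hrodd.add_one.neg_one_pow) (by omega)
        rcases (Nat.Prime.dvd_mul hr).1 h1 with h | h
        · exact h
        · have := hr.dvd_factorial.1 h
          omega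

end Cfsg.Agent.Lib.AltLargestPrime
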