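import Mathlib
import Cfsg.Agent.Lib.AbelianPerm

/-!
# Abelian subgroups of maximal order in alternating groups: the orbit structure and conjugacy
-/

set_option autoImplicit false
set_option linter.unusedSectionVars false

namespace Cfsg.Agent.Lib.AltMaxAb

open Equiv MulAction Cfsg.Agent.Lib.AbelianPerm

section block

lemma dec3 : ∀ a b : Perm (Fin 3), (∀ u v, a u = u → a v = v) → (∀ u v, b u = u → b v = v) →
    ∀ u v, a u = b u → a v = b v := by decide +kernel

lemma dec4 : ∀ a b : Perm (Fin 4), (∀ u v, a u = u → a v = v) → (∀ u, a (a u) = u) →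
    (∀ u v, b u = u → b v = v) → (∀ u, b (b u) = u) →
    ∀ u v, a u = b u → a v = b v := by decide +kernel

lemma dec_S {S : Type*} [Finite S] (hS : Nat.card S = 3 ∨ Nat.card S = 4) (p q : Perm S)
    (sp : ∀ u v, p u = u → p v = v) (sq : ∀ u v, q u = u → q v = v)
    (fp : Nat.card S = 4 → ∀ u, p (p u) = u) (fq : Nat.card S = 4 → ∀ u, q (q u) = u)
    (u v : S) (h : p u = q u) : p v = q v := by
  rcases hS with h3 | h4
  · let e : S ≃ Fin 3 := Finite.equivFinOfCardEq h3
    have key := dec3 (e.permCongr p) (e.permCongr q)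
      (by
        intro a b hab
        have h1 : p (e.symm a) = e.symm a := by
          have := congrArg e.symm hab
          simpa [Equiv.permCongr_apply] using this
        have h2 := sp _ (e.symm b) h1
        simp [Equiv.permCongr_apply, h2])
      (by
        intro a b hab
        have h1 : q (e.symm a) = e.symm a := by
          have := congrArg e.symm hab
          simpa [Equiv.permCongr_apply] using this
        have h2 := sq _ (e.symm b) h1
        simp [Equiv.permCongr_apply, h2])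
      (e u) (e v) (by simp [Equiv.permCongr_apply, h])
    simpa [Equiv.permCongr_apply] using key
  · let e : S ≃ Fin 4 := Finite.equivFinOfCardEq h4
    have key := dec4 (e.permCongr p) (e.permCongr q)
      (by
        intro a b hab
        have h1 : p (e.symm a) = e.symm a := by
          have := congrArg e.symm hab
          simpa [Equiv.permCongr_apply] using this
        have h2 := sp _ (e.symm b) h1
        simp [Equiv.permCongr_apply, h2])
      (by
        intro a
        simp [Equiv.permCongr_apply, fp h4])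
      (by
        intro a b hab
        have h1 : q (e.symm a) = e.symm a := by
          have := congrArg e.symm hab
          simpa [Equiv.permCongr_apply] using this
        have h2 := sq _ (e.symm b) h1
        simp [Equiv.permCongr_apply, h2])
      (by
        intro a
        simp [Equiv.permCongr_apply, fq h4])
      (e u) (e v) (by simp [Equiv.permCongr_apply, h])
    simpa [Equiv.permCongr_apply] using key

/-- Two permutations with the regular structure on a block agree as soon as they agree at one point. -/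
lemma uniq_block {X : Type*} [Finite X] (S : Set X) (hS : Nat.card S = 3 ∨ Nat.card S = 4) (σ τ : Perm X)
    (hσ : ∀ z, σ z ∈ S ↔ z ∈ S) (hτ : ∀ z, τ z ∈ S ↔ z ∈ S)
    (sσ : ∀ u ∈ S, ∀ v ∈ S, σ u = u → σ v = v) (sτ : ∀ u ∈ S, ∀ v ∈ S, τ u = u → τ v = v)
    (fσ : Nat.card S = 4 → ∀ u ∈ S, σ (σ u) = u) (fτ : Nat.card S = 4 → ∀ u ∈ S, τ (τ u) = u)
    {x y : X} (hx : x ∈ S) (hy : y ∈ S) (h : σ x = τ x) : σ y = τ y := by
  have key := dec_S (S := S) hS (σ.subtypePerm hσ) (τ.subtypePerm hτ)
    (by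
      intro u v huv
      apply Subtype.ext
      have h1 : σ u = u := congrArg Subtype.val huv
      exact sσ u u.2 v v.2 h1)
    (by
      intro u v huv
      apply Subtype.ext
      have h1 : τ u = u := congrArg Subtype.val huv
      exact sτ u u.2 v v.2 h1)
    (fun h4 u => Subtype.ext (fσ h4 u u.2))
    (fun h4 u => Subtype.ext (fτ h4 u u.2))
    ⟨x, hx⟩ ⟨y, hy⟩ (Subtype.ext h)
  exact congrArg Subtype.val key

end block

section orbits

variable {G α : Type*} [Group G] [MulAction G α] [Finite α]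

lemma fix_of_fix (hcomm : ∀ a b : G, a * b = b * a) (g : G) {x y : α} (hy : y ∈ orbit G x) (h : g • x = x) :
    g • y = y := by
  obtain ⟨c, rfl⟩ := hy
  show g • (c • x) = c • x
  rw [smul_smul, hcomm, mul_smul, h]

lemma out_mem (ω : Om G α) : Quotient.out ω ∈ ω.orbit := by
  rw [orbitRel.Quotient.orbit_eq_orbit_out ω Quotient.out_eq']
  exact mem_orbit_self _

lemma smul_out_mem (g : G) (ω : Om G α) : g • Quotient.out ω ∈ ω.orbit := by
  rw [orbitRel.Quotient.orbit_eq_orbit_out ω Quotient.out_eq']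
  exact ⟨g, rfl⟩

lemma mem_orbit_iff_out {ω : Om G α} {x : α} : x ∈ ω.orbit ↔ x ∈ orbit G (Quotient.out ω) := by
  rw [orbitRel.Quotient.orbit_eq_orbit_out ω Quotient.out_eq']

lemma exists_om (x : α) : ∃ ω : Om G α, x ∈ ω.orbit :=
  ⟨Quotient.mk'' x, mem_orbit_self x⟩

lemma eq_of_base [FaithfulSMul G α] (hcomm : ∀ a b : G, a * b = b * a) {g h : G}
    (H : ∀ ω : Om G α, g • Quotient.out ω = h • Quotient.out ω) : g = h := by
  apply FaithfulSMul.eq_of_smul_eq_smul (α := α)
  intro x
  obtain ⟨ω, hx⟩ := exists_om (G := G) x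
  rw [mem_orbit_iff_out] at hx
  obtain ⟨c, rfl⟩ := hx
  show g • (c • Quotient.out ω) = h • (c • Quotient.out ω)
  rw [smul_smul, smul_smul, hcomm g c, hcomm h c, mul_smul, mul_smul, H]

lemma exists_of_card [FaithfulSMul G α] [Finite G] [Fintype (Om G α)] (hcomm : ∀ a b : G, a * b = b * a)
    (hcard : Nat.card G = ∏ ω : Om G α, sz ω) (φ : ∀ ω : Om G α, ω.orbit) :
    ∃ g : G, ∀ ω : Om G α, g • Quotient.out ω = φ ω := by
  classical
  let F : G → (∀ ω : Om G α, ω.orbit) := fun g ω => ⟨g • (Quotient.out ω), smul_out_mem g ω⟩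
  have hinj : Function.Injective F := by
    intro g h hgh
    exact eq_of_base hcomm fun ω => congrArg Subtype.val (congrFun hgh ω)
  have hb : Function.Bijective F := hinj.bijective_of_nat_card_le (by
    rw [Nat.card_pi, hcard]
    rfl)
  obtain ⟨g, hg⟩ := hb.2 φ
  exact ⟨g, fun ω => congrArg Subtype.val (congrFun hg ω)⟩

/-- Elements supported on a single orbit. -/
lemma exists_supported [FaithfulSMul G α] [Finite G] [Fintype (Om G α)] (hcomm : ∀ a b : G, a * b = b * a)
    (hcard : Nat.card G = ∏ ω : Om G α, sz ω) (ω₀ : Om G α) (g : G) :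
    ∃ g' : G, (∀ x ∈ ω₀.orbit, g' • x = g • x) ∧ ∀ x, x ∉ ω₀.orbit → g' • x = x := by
  classical
  obtain ⟨g', hg'⟩ := exists_of_card hcomm hcard
    (fun ω => if h : ω = ω₀ then ⟨g • Quotient.out ω, smul_out_mem g ω⟩ else ⟨Quotient.out ω, out_mem ω⟩)
  refine ⟨g', ?_, ?_⟩
  · intro x hx
    have h1 : g' • Quotient.out ω₀ = g • Quotient.out ω₀ := by
      rw [hg']
      simp
    have h2 : (g⁻¹ * g') • Quotient.out ω₀ = Quotient.out ω₀ := by
      rw [mul_smul, h1, inv_smul_smul]
    have h3 := fix_of_fix hcomm (g⁻¹ * g') (mem_orbit_iff_out.mp hx) h2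
    rw [mul_smul, inv_smul_eq_iff] at h3
    exact h3
  · intro x hx
    obtain ⟨ω, hxω⟩ := exists_om (G := G) x
    have hne : ω ≠ ω₀ := by
      rintro rfl
      exact hx hxω
    have h1 : g' • Quotient.out ω = Quotient.out ω := by
      rw [hg']
      simp [hne]
    exact fix_of_fix hcomm g' (mem_orbit_iff_out.mp hxω) h1

end orbits

section signs

variable {X : Type*} [Fintype X] [DecidableEq X] {A : Subgroup (Perm X)}

lemma card_orbit_mk (x : X) : sz (Quotient.mk'' x : Om A X) = Nat.card (orbit A x) := by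
  unfold sz
  rw [orbitRel.Quotient.orbit_mk]

/-- Elements of a group of even permutations which is the full product act on `4`-orbits as involutions. -/
lemma four_of_even [Fintype (Om A X)] (hcomm : ∀ a b : A, a * b = b * a) (hsign : ∀ g ∈ A, Perm.sign g = 1)
    (hcard : Nat.card A = ∏ ω : Om A X, sz ω) (g : A) (x : X) (h4 : Nat.card (orbit A x) = 4) :
    (g : Perm X) ((g : Perm X) x) = x := by
  classical
  set ω₀ : Om A X := Quotient.mk'' x with hω₀
  have hxω : x ∈ ω₀.orbit := mem_orbit_self x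
  have hω₀orb : ω₀.orbit = orbit A x := orbitRel.Quotient.orbit_mk x
  obtain ⟨g', h1, h2⟩ := exists_supported hcomm hcard ω₀ g
  have e1 : (g : Perm X) x = (g' : Perm X) x := (h1 x hxω).symm
  have hax : (g' : Perm X) x ∈ orbit A x := ⟨g', rfl⟩
  have e2 : (g : Perm X) ((g' : Perm X) x) = (g' : Perm X) ((g' : Perm X) x) :=
    (h1 _ (hω₀orb ▸ hax)).symm
  rw [e1, e2]
  by_contra hcon
  have hfix : ∀ (k : A) (z : X), z ∈ orbit A x → (k : Perm X) z = z → (k : Perm X) x = x := by
    intro k z hz hzz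
    have hx' : x ∈ orbit A z := (mem_orbit_symm).mp hz
    exact fix_of_fix hcomm k hx' hzz
  have hp2 : ∀ z, ((g' * g' : A) : Perm X) z = (g' : Perm X) ((g' : Perm X) z) := fun z => rfl
  obtain ⟨p, hp⟩ : ∃ p : Perm X, p = (g' : Perm X) := ⟨_, rfl⟩
  rw [← hp] at hcon hax
  have h2' : ∀ z, z ∉ orbit A x → p z = z := fun z hz => by
    rw [hp]; exact h2 z (by rwa [hω₀orb])
  obtain ⟨a, ha⟩ : ∃ a, a = p x := ⟨_, rfl⟩
  obtain ⟨b, hb⟩ : ∃ b, b = p a := ⟨_, rfl⟩
  obtain ⟨c, hc⟩ : ∃ c, c = p b := ⟨_, rfl⟩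
  have hpo : ∀ z ∈ orbit A x, p z ∈ orbit A x := by
    intro z hz
    rw [hp]
    obtain ⟨k, rfl⟩ := hz
    exact ⟨g' * k, rfl⟩
  have hxS : x ∈ orbit A x := mem_orbit_self x
  have haS : a ∈ orbit A x := ha ▸ hpo _ hxS
  have hbS : b ∈ orbit A x := hb ▸ hpo _ haS
  have hcS : c ∈ orbit A x := hc ▸ hpo _ hbS
  have hp4 : p c = x := by
    have h3 := pow_sz_smul (G := A) hcomm g' x
    have h4' : sz (Quotient.mk'' x : Om A X) = 4 := by rw [card_orbit_mk, h4]
    rw [h4'] at h3
    have h5 : (g' ^ 4 : A) • x = (g' : Perm X) ((g' : Perm X) ((g' : Perm X) ((g' : Perm X) x))) := rfl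
    rw [h5, ← hp, ← ha, ← hb, ← hc] at h3
    exact h3
  have hxa : x ≠ a := by
    intro h
    apply hcon
    rw [← ha, ← h, ← ha, ← h]
  have hxb : x ≠ b := by
    intro h
    apply hcon
    rw [← ha, ← hb, ← h]
  have hxc : x ≠ c := by
    intro h
    apply hxa
    rw [← h] at hp4
    rw [ha, hp4]
  have hab : a ≠ b := by
    intro h
    apply hxa
    have h3 : (g' : Perm X) a = a := by rw [← hp, ← hb, h]
    have h4 := hfix g' a haS h3
    rw [← hp, ← ha] at h4
    exact h4.symm
  have hbc : b ≠ c := by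
    intro h
    apply hxa
    have h3 : (g' : Perm X) b = b := by rw [← hp, ← hc, h]
    have h4 := hfix g' b hbS h3
    rw [← hp, ← ha] at h4
    exact h4.symm
  have hac : a ≠ c := by
    intro h
    apply hxb
    have h3 : ((g' * g' : A) : Perm X) a = a := by
      rw [hp2, ← hp, ← hb, ← hc, h]
    have h4 := hfix _ a haS h3
    rw [hp2, ← hp, ← ha, ← hb] at h4
    exact h4.symm
  -- the orbit is exactly the four points
  have hT : ({x, a, b, c} : Finset X).card = 4 := by
    rw [Finset.card_insert_of_notMem (by simp [hxa, hxb, hxc]),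
      Finset.card_insert_of_notMem (by simp [hab, hac]),
      Finset.card_insert_of_notMem (by simp [hbc]), Finset.card_singleton]
  have hsub : ((({x, a, b, c} : Finset X) : Set X)) ⊆ orbit A x := by
    intro z hz
    simp only [Finset.coe_insert, Finset.coe_singleton, Set.mem_insert_iff, Set.mem_singleton_iff] at hz
    rcases hz with rfl | rfl | rfl | rfl
    · exact hxS
    · exact haS
    · exact hbS
    · exact hcS
  have hSeq : ((({x, a, b, c} : Finset X) : Set X)) = orbit A x := by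
    apply Set.eq_of_subset_of_ncard_le hsub _ (Set.toFinite _)
    rw [Set.ncard_coe_finset, hT, ← Nat.card_coe_set_eq, h4]
  have hperm : p = swap x a * swap a b * swap b c := by
    ext z
    simp only [Perm.coe_mul, Function.comp_apply]
    by_cases hz : z ∈ orbit A x
    · rw [← hSeq] at hz
      simp only [Finset.coe_insert, Finset.coe_singleton, Set.mem_insert_iff, Set.mem_singleton_iff] at hz
      rcases hz with rfl | rfl | rfl | rfl
      · rw [swap_apply_of_ne_of_ne hxb hxc, swap_apply_of_ne_of_ne hxa hxb, swap_apply_left, ha]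
      · rw [swap_apply_of_ne_of_ne hab hac, swap_apply_left, swap_apply_of_ne_of_ne hxb.symm hab.symm, hb]
      · rw [swap_apply_left, swap_apply_of_ne_of_ne hac.symm hbc.symm,
          swap_apply_of_ne_of_ne hxc.symm hac.symm, hc]
      · rw [swap_apply_right, swap_apply_right, swap_apply_right, hp4]
    · rw [h2' z hz]
      have hz' : z ≠ x ∧ z ≠ a ∧ z ≠ b ∧ z ≠ c := by
        refine ⟨?_, ?_, ?_, ?_⟩
        · rintro rfl; exact hz hxS
        · rintro rfl; exact hz haS
        · rintro rfl; exact hz hbS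
        · rintro rfl; exact hz hcS
      obtain ⟨n1, n2, n3, n4⟩ := hz'
      rw [swap_apply_of_ne_of_ne n3 n4, swap_apply_of_ne_of_ne n2 n3, swap_apply_of_ne_of_ne n1 n2]
  have hs := hsign g' g'.2
  rw [← hp, hperm, map_mul, map_mul, Perm.sign_swap hxa, Perm.sign_swap hab, Perm.sign_swap hbc] at hs
  exact absurd hs (by decide)

/-- Bound when an orbit of size two is present. -/
lemma card_le_of_two [Fintype (Om A X)] [DecidableEq (Om A X)] (hcomm : ∀ a b : A, a * b = b * a) (hsign : ∀ g ∈ A, Perm.sign g = 1)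
    (ω₀ : Om A X) (h2 : sz ω₀ = 2) :
    Nat.card A ≤ ∏ ω ∈ Finset.univ.erase ω₀, sz ω := by
  classical
  let F : A → (∀ ω : {ω : Om A X // ω ≠ ω₀}, ω.1.orbit) := fun g ω =>
    ⟨g • Quotient.out ω.1, smul_out_mem g ω.1⟩
  have hinj : Function.Injective F := by
    intro g h hgh
    have hb : ∀ ω : Om A X, ω ≠ ω₀ → (g⁻¹ * h) • Quotient.out ω = Quotient.out ω := by
      intro ω hω
      have h1 : g • Quotient.out ω = h • Quotient.out ω := congrArg Subtype.val (congrFun hgh ⟨ω, hω⟩)
      rw [mul_smul, ← h1, inv_smul_smul]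
    have hoff : ∀ z, z ∉ ω₀.orbit → (g⁻¹ * h) • z = z := by
      intro z hz
      obtain ⟨ω, hzω⟩ := exists_om (G := A) z
      have hne : ω ≠ ω₀ := by
        rintro rfl
        exact hz hzω
      exact fix_of_fix hcomm _ (mem_orbit_iff_out.mp hzω) (hb ω hne)
    obtain ⟨p, q, hpq, huniv⟩ := Nat.card_eq_two_iff.1 (show Nat.card ω₀.orbit = 2 from h2)
    obtain ⟨x, hx⟩ := p
    obtain ⟨y, hy⟩ := q
    have hxy : x ≠ y := fun h => hpq (Subtype.ext h)
    have hall : ∀ z ∈ ω₀.orbit, z = x ∨ z = y := by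
      intro z hz
      have : (⟨z, hz⟩ : ω₀.orbit) ∈ ({⟨x, hx⟩, ⟨y, hy⟩} : Set ω₀.orbit) := by rw [huniv]; trivial
      simpa [Subtype.ext_iff] using this
    have hmem : ∀ (k : A) (z : X), z ∈ ω₀.orbit → k • z ∈ ω₀.orbit := by
      intro k z hz
      rw [mem_orbit_iff_out] at hz ⊢
      obtain ⟨c, rfl⟩ := hz
      exact ⟨k * c, (mul_smul _ _ _)⟩
    have hy' : y ∈ orbit A x := by
      rw [mem_orbit_iff_out] at hx hy
      exact (MulAction.orbit_eq_iff.mpr hx) ▸ hy
    suffices hσ : (g⁻¹ * h) = 1 by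
      rw [inv_mul_eq_one] at hσ
      exact hσ
    by_cases hfx : (g⁻¹ * h) • x = x
    · apply FaithfulSMul.eq_of_smul_eq_smul (α := X)
      intro z
      rw [one_smul]
      by_cases hz : z ∈ ω₀.orbit
      · rw [mem_orbit_iff_out] at hz hx
        have hz' : z ∈ orbit A x := (MulAction.orbit_eq_iff.mpr hx) ▸ hz
        exact fix_of_fix hcomm _ hz' hfx
      · exact hoff z hz
    · exfalso
      have h3 : (g⁻¹ * h) • x = y := (hall _ (hmem _ _ hx)).resolve_left hfx
      have h4 : (g⁻¹ * h) • y = x := by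
        apply (hall _ (hmem _ _ hy)).resolve_right
        intro h5
        have : (g⁻¹ * h) • x = (g⁻¹ * h) • y := by rw [h3, h5]
        exact hxy (smul_left_cancel _ this)
      have hsw : ((g⁻¹ * h : A) : Perm X) = swap x y := by
        ext z
        by_cases hzx : z = x
        · subst hzx
          rw [swap_apply_left]
          exact h3
        by_cases hzy : z = y
        · subst hzy
          rw [swap_apply_right]
          exact h4
        rw [swap_apply_of_ne_of_ne hzx hzy]
        apply hoff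
        intro hz
        rcases hall z hz with h5 | h5
        · exact hzx h5
        · exact hzy h5
      have := hsign (g⁻¹ * h : A) (g⁻¹ * h : A).2
      rw [hsw, Perm.sign_swap hxy] at this
      exact absurd this (by decide)
  have h1 := Nat.card_le_card_of_injective F hinj
  rw [Nat.card_pi] at h1
  refine h1.trans (le_of_eq ?_)
  rw [Finset.prod_subtype (Finset.univ.erase ω₀) (p := fun ω => ω ≠ ω₀) (by simp)]
  rfl

end signs

section numeric

/-- Strict bounds on a large part, from the first three. -/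
lemma part_strict (n C : ℕ) (h5 : 5 ≤ n → 5 * f (n - 5) < C) (h6 : 6 ≤ n → 6 * f (n - 6) < C)
    (h7 : 7 ≤ n → 7 * f (n - 7) < C) : ∀ a, 5 ≤ a → a ≤ n → a * f (n - a) < C := by
  intro a
  induction a using Nat.strong_induction_on with
  | _ a ih =>
    intro ha han
    by_cases h8 : a ≤ 7
    · have : a = 5 ∨ a = 6 ∨ a = 7 := by omega
      rcases this with rfl | rfl | rfl
      · exact h5 han
      · exact h6 han
      · exact h7 han
    · have h1 := ih (a - 3) (by omega) (by omega) (by omega)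
      rw [show n - (a - 3) = (n - a) + 3 by omega] at h1
      have h2 := three_mul_le (n - a)
      have h3 : a ≤ 3 * (a - 3) := by omega
      calc a * f (n - a) ≤ (3 * (a - 3)) * f (n - a) := Nat.mul_le_mul_right _ h3
        _ = (a - 3) * (3 * f (n - a)) := by ring
        _ ≤ (a - 3) * f (n - a + 3) := Nat.mul_le_mul_left _ h2
        _ < C := h1

/-- The strict bounds on the other shapes. -/
structure Bounds (n C : ℕ) : Prop where
  one : 1 ≤ n → f (n - 1) < C
  two : 2 ≤ n → f (n - 2) < C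
  five : 5 ≤ n → 5 * f (n - 5) < C
  six : 6 ≤ n → 6 * f (n - 6) < C
  seven : 7 ≤ n → 7 * f (n - 7) < C

lemma bounds_zero (j : ℕ) (hj : 1 ≤ j) : Bounds (3 * j) (3 ^ j * 4 ^ 0) := by
  obtain ⟨k, rfl⟩ : ∃ k, j = k + 1 := ⟨j - 1, by omega⟩
  refine ⟨?_, ?_, ?_, ?_, ?_⟩
  · intro _
    rw [show 3 * (k + 1) - 1 = 3 * k + 2 by omega, f_three_mul_two]
    have : 0 < 3 ^ k := by positivity
    rw [pow_succ, pow_zero]
    omega
  · intro _
    cases k with
    | zero => decide
    | succ k =>
      rw [show 3 * (k + 1 + 1) - 2 = 3 * (k + 1) + 1 by omega, f_three_mul_one]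
      have : 0 < 3 ^ k := by positivity
      rw [pow_succ, pow_succ, pow_zero]
      omega
  · intro h
    obtain ⟨m, rfl⟩ : ∃ m, k = m + 1 := ⟨k - 1, by omega⟩
    cases m with
    | zero => decide
    | succ m =>
      rw [show 3 * (m + 1 + 1 + 1) - 5 = 3 * (m + 1) + 1 by omega, f_three_mul_one]
      have : 0 < 3 ^ m := by positivity
      rw [pow_succ, pow_succ, pow_succ, pow_zero]
      omega
  · intro h
    obtain ⟨m, rfl⟩ : ∃ m, k = m + 1 := ⟨k - 1, by omega⟩
    rw [show 3 * (m + 1 + 1) - 6 = 3 * m by omega, f_three_mul]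
    have : 0 < 3 ^ m := by positivity
    rw [pow_succ, pow_succ, pow_zero]
    omega
  · intro h
    obtain ⟨m, rfl⟩ : ∃ m, k = m + 2 := ⟨k - 2, by omega⟩
    rw [show 3 * (m + 2 + 1) - 7 = 3 * m + 2 by omega, f_three_mul_two]
    have : 0 < 3 ^ m := by positivity
    rw [pow_succ, pow_succ, pow_succ, pow_zero]
    omega

lemma bounds_one (j : ℕ) : Bounds (3 * j + 4) (3 ^ j * 4 ^ 1) := by
  refine ⟨?_, ?_, ?_, ?_, ?_⟩
  · intro _
    rw [show 3 * j + 4 - 1 = 3 * (j + 1) by omega, f_three_mul]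
    have : 0 < 3 ^ j := by positivity
    rw [pow_succ, pow_one]
    omega
  · intro _
    rw [show 3 * j + 4 - 2 = 3 * j + 2 by omega, f_three_mul_two]
    have : 0 < 3 ^ j := by positivity
    rw [pow_one]
    omega
  · intro h
    obtain ⟨m, rfl⟩ : ∃ m, j = m + 1 := ⟨j - 1, by omega⟩
    rw [show 3 * (m + 1) + 4 - 5 = 3 * m + 2 by omega, f_three_mul_two]
    have : 0 < 3 ^ m := by positivity
    rw [pow_succ, pow_one]
    omega
  · intro h
    obtain ⟨m, rfl⟩ : ∃ m, j = m + 1 := ⟨j - 1, by omega⟩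
    cases m with
    | zero => decide
    | succ m =>
      rw [show 3 * (m + 1 + 1) + 4 - 6 = 3 * (m + 1) + 1 by omega, f_three_mul_one]
      have : 0 < 3 ^ m := by positivity
      rw [pow_succ, pow_succ, pow_one]
      omega
  · intro h
    obtain ⟨m, rfl⟩ : ∃ m, j = m + 1 := ⟨j - 1, by omega⟩
    rw [show 3 * (m + 1) + 4 - 7 = 3 * m by omega, f_three_mul]
    have : 0 < 3 ^ m := by positivity
    rw [pow_succ, pow_one]
    omega

lemma bounds_two (j : ℕ) : Bounds (3 * j + 8) (3 ^ j * 4 ^ 2) := by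
  have hj : 0 < 3 ^ j := by positivity
  refine ⟨?_, ?_, ?_, ?_, ?_⟩
  · intro _
    rw [show 3 * j + 8 - 1 = 3 * (j + 1 + 1) + 1 by omega, f_three_mul_one, pow_succ]
    omega
  · intro _
    rw [show 3 * j + 8 - 2 = 3 * (j + 2) by omega, f_three_mul, pow_add]
    omega
  · intro _
    rw [show 3 * j + 8 - 5 = 3 * (j + 1) by omega, f_three_mul, pow_succ]
    omega
  · intro _
    rw [show 3 * j + 8 - 6 = 3 * j + 2 by omega, f_three_mul_two]
    omega
  · intro _
    cases j with
    | zero => decide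
    | succ m =>
      rw [show 3 * (m + 1) + 8 - 7 = 3 * (m + 1) + 1 by omega, f_three_mul_one]
      have : 0 < 3 ^ m := by positivity
      rw [pow_succ]
      omega

lemma num_shape (a b j r : ℕ) (hr : r ≤ 2) (h1 : 3 * a + 4 * b = 3 * j + 4 * r)
    (h2 : 3 ^ j * 4 ^ r ≤ 3 ^ a * 4 ^ b) : a = j ∧ b = r := by
  obtain ⟨i, hi⟩ : ∃ i, b = r + 3 * i := ⟨b / 3, by omega⟩
  have hj : j = a + 4 * i := by omega
  subst hi
  subst hj
  have h3 : i = 0 := by
    by_contra hne
    have h4 : 64 ^ i < 81 ^ i := Nat.pow_lt_pow_left (by norm_num) hne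
    have h5 : 3 ^ (a + 4 * i) * 4 ^ r = (3 ^ a * 4 ^ r) * 81 ^ i := by
      rw [pow_add, pow_mul]; norm_num; ring
    have h6 : 3 ^ a * 4 ^ (r + 3 * i) = (3 ^ a * 4 ^ r) * 64 ^ i := by
      rw [pow_add, pow_mul]; norm_num; ring
    rw [h5, h6] at h2
    have h7 : 0 < 3 ^ a * 4 ^ r := by positivity
    have := Nat.le_of_mul_le_mul_left h2 h7
    omega
  subst h3
  simp

end numeric

section shape

variable {X : Type*} [Fintype X] [DecidableEq X] {A : Subgroup (Perm X)}

/-- Every orbit has size three or four. -/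
lemma parts_of_bounds [Fintype (Om A X)] [DecidableEq (Om A X)] (hcomm : ∀ a b : A, a * b = b * a)
    (hsign : ∀ g ∈ A, Perm.sign g = 1) {n C : ℕ} (hn : Nat.card X = n) (hb : Bounds n C)
    (hC : C ≤ Nat.card A) (ω : Om A X) : sz ω = 3 ∨ sz ω = 4 := by
  have hsum := sum_sz (G := A) (α := X)
  have hP := card_le_prod (G := A) (α := X) hcomm
  have h1 : ∏ ω' : Om A X, sz ω' = sz ω * ∏ ω' ∈ Finset.univ.erase ω, sz ω' :=
    (Finset.mul_prod_erase _ _ (Finset.mem_univ ω)).symm
  have h4 : sz ω + ∑ ω' ∈ Finset.univ.erase ω, sz ω' = n := by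
    rw [Finset.add_sum_erase _ _ (Finset.mem_univ ω), hsum, hn]
  have h5 : ∑ ω' ∈ Finset.univ.erase ω, sz ω' = n - sz ω := by omega
  have h6 := prod_le_f (Finset.univ.erase ω) (sz (G := A) (α := X)) (fun ω' _ => sz_pos ω')
  rw [h5] at h6
  have h7 : Nat.card A ≤ sz ω * f (n - sz ω) :=
    hP.trans (h1.le.trans (Nat.mul_le_mul_left _ h6))
  have hpos := sz_pos ω
  by_contra hcon
  have hsz : sz ω = 1 ∨ sz ω = 2 ∨ 5 ≤ sz ω := by omega
  rcases hsz with h | h | h
  · have := hb.one (by omega)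
    rw [h, one_mul] at h7
    omega
  · have h8 := card_le_of_two hcomm hsign ω h
    have := hb.two (by omega)
    rw [h] at h6
    omega
  · have := part_strict n C hb.five hb.six hb.seven (sz ω) h (by omega)
    omega

/-- Numerics of the orbit counts. -/
lemma prod_sum_of_parts [Fintype (Om A X)] (hp : ∀ ω : Om A X, sz ω = 3 ∨ sz ω = 4) :
    Nat.card X = 3 * Nat.card {ω : Om A X // sz ω = 3} + 4 * Nat.card {ω : Om A X // sz ω = 4} ∧
    ∏ ω : Om A X, sz ω = 3 ^ Nat.card {ω : Om A X // sz ω = 3} * 4 ^ Nat.card {ω : Om A X // sz ω = 4} := by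
  classical
  have e3 : Nat.card {ω : Om A X // sz ω = 3} = (Finset.univ.filter fun ω : Om A X => sz ω = 3).card := by
    rw [Nat.card_eq_fintype_card, Fintype.card_subtype]
  have e4 : Nat.card {ω : Om A X // sz ω = 4} = (Finset.univ.filter fun ω : Om A X => sz ω = 4).card := by
    rw [Nat.card_eq_fintype_card, Fintype.card_subtype]
  have e5 : (Finset.univ.filter fun ω : Om A X => ¬ sz ω = 3) = Finset.univ.filter fun ω : Om A X => sz ω = 4 := by
    ext ω
    simp only [Finset.mem_filter, Finset.mem_univ, true_and]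
    rcases hp ω with h | h <;> omega
  rw [e3, e4]
  constructor
  · rw [← sum_sz (G := A) (α := X),
      ← Finset.sum_filter_add_sum_filter_not Finset.univ (fun ω : Om A X => sz ω = 3), e5]
    congr 1
    · rw [Finset.sum_congr rfl (g := fun _ => 3)]
      · simp [mul_comm]
      · intro ω hω
        exact (Finset.mem_filter.mp hω).2
    · rw [Finset.sum_congr rfl (g := fun _ => 4)]
      · simp [mul_comm]
      · intro ω hω
        exact (Finset.mem_filter.mp hω).2
  · rw [← Finset.prod_filter_mul_prod_filter_not Finset.univ (fun ω : Om A X => sz ω = 3), e5]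
    congr 1
    · rw [Finset.prod_congr rfl (g := fun _ => 3)]
      · simp
      · intro ω hω
        exact (Finset.mem_filter.mp hω).2
    · rw [Finset.prod_congr rfl (g := fun _ => 4)]
      · simp
      · intro ω hω
        exact (Finset.mem_filter.mp hω).2

/-- The shape of a large abelian subgroup. -/
theorem main_shape [Fintype (Om A X)] [DecidableEq (Om A X)] (hcomm : ∀ a b : A, a * b = b * a)
    (hsign : ∀ g ∈ A, Perm.sign g = 1) {j r : ℕ} (hr : r ≤ 2) (hn : Nat.card X = 3 * j + 4 * r)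
    (hb : Bounds (3 * j + 4 * r) (3 ^ j * 4 ^ r)) (hC : 3 ^ j * 4 ^ r ≤ Nat.card A) :
    (∀ ω : Om A X, sz ω = 3 ∨ sz ω = 4) ∧ Nat.card A = ∏ ω : Om A X, sz ω ∧
    Nat.card A = 3 ^ j * 4 ^ r ∧
    ∀ c, Nat.card {ω : Om A X // sz ω = c} = if c = 3 then j else if c = 4 then r else 0 := by
  have hp := parts_of_bounds hcomm hsign hn hb hC
  obtain ⟨h1, h2⟩ := prod_sum_of_parts hp
  have hle := card_le_prod (G := A) (α := X) hcomm
  rw [hn] at h1
  rw [h2] at hle
  obtain ⟨h3, h4⟩ := num_shape _ _ j r hr h1.symm (hC.trans hle)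
  rw [h3, h4] at hle h2
  have hcard : Nat.card A = 3 ^ j * 4 ^ r := le_antisymm hle hC
  refine ⟨hp, by rw [hcard, h2], hcard, ?_⟩
  intro c
  by_cases hc3 : c = 3
  · subst hc3
    simpa using h3
  by_cases hc4 : c = 4
  · subst hc4
    simpa using h4
  · rw [if_neg hc3, if_neg hc4]
    have : IsEmpty {ω : Om A X // sz ω = c} := ⟨fun ω => by
      rcases hp ω.1 with h | h
      · exact hc3 (ω.2.symm.trans h)
      · exact hc4 (ω.2.symm.trans h)⟩
    exact Nat.card_of_isEmpty

end shape

section conj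

variable {X : Type*} [Fintype X] [DecidableEq X] {A B : Subgroup (Perm X)}

noncomputable def eqvOfCard {α β : Type*} [Finite α] [Finite β] (h : Nat.card α = Nat.card β) : α ≃ β :=
  Classical.choice (Finite.card_eq.1 h)

lemma pi_inv (π : Perm X) (z : X) : π (π⁻¹ z) = z := by simp

lemma inv_pi (π : Perm X) (z : X) : π⁻¹ (π z) = z := by simp

lemma mem_iff_of_mem {A : Subgroup (Perm X)} {z z' : X} (w : X) (h : z' ∈ orbit A z) :
    z' ∈ orbit A w ↔ z ∈ orbit A w := by
  rw [← MulAction.orbit_eq_iff, ← MulAction.orbit_eq_iff, MulAction.orbit_eq_iff.mpr h]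

lemma mem_of_both {A : Subgroup (Perm X)} {u v w : X} (hu : u ∈ orbit A w) (hv : v ∈ orbit A w) :
    v ∈ orbit A u := by
  rw [MulAction.orbit_eq_iff.mpr hu]
  exact hv

lemma mk_eq_iff {A : Subgroup (Perm X)} (x y : X) :
    x ∈ orbit A y ↔ (Quotient.mk'' x : Om A X) = Quotient.mk'' y := by
  rw [Quotient.eq'']
  exact Iff.rfl

lemma exists_pi [Finite (Om A X)] [Finite (Om B X)]
    (hcount : ∀ c, Nat.card {ω : Om A X // sz ω = c} = Nat.card {ω : Om B X // sz ω = c}) :
    ∃ π : Perm X, ∀ x y, x ∈ orbit A y ↔ π x ∈ orbit B (π y) := by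
  classical
  let φ : Om A X ≃ Om B X :=
    Equiv.ofFiberEquiv (f := sz) (g := sz) (fun c => eqvOfCard (hcount c))
  have hφ : ∀ ω, sz (φ ω) = sz ω := fun ω => Equiv.ofFiberEquiv_map _ ω
  have hfib : ∀ ω : Om A X, Nat.card {a : X // (Quotient.mk'' a : Om A X) = ω} =
      Nat.card {b : X // φ.symm (Quotient.mk'' b : Om B X) = ω} := by
    intro ω
    have h1 : Nat.card {a : X // (Quotient.mk'' a : Om A X) = ω} = sz ω :=
      Nat.card_congr (Equiv.subtypeEquivRight (fun a => orbitRel.Quotient.mem_orbit.symm))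
    have h2 : Nat.card {b : X // φ.symm (Quotient.mk'' b : Om B X) = ω} =
        Nat.card {b : X // (Quotient.mk'' b : Om B X) = φ ω} := by
      apply Nat.card_congr
      apply Equiv.subtypeEquivRight
      intro b
      rw [Equiv.symm_apply_eq]
    have h3 : Nat.card {b : X // (Quotient.mk'' b : Om B X) = φ ω} = sz (φ ω) :=
      Nat.card_congr (Equiv.subtypeEquivRight (fun a => orbitRel.Quotient.mem_orbit.symm))
    rw [h1, h2, h3, hφ]
  let π : X ≃ X := Equiv.ofFiberEquiv (f := fun x => (Quotient.mk'' x : Om A X))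
    (g := fun y => φ.symm (Quotient.mk'' y : Om B X)) (fun ω => eqvOfCard (hfib ω))
  have hπ : ∀ x, φ.symm (Quotient.mk'' (π x) : Om B X) = Quotient.mk'' x :=
    fun x => Equiv.ofFiberEquiv_map (f := fun x => (Quotient.mk'' x : Om A X))
      (g := fun y => φ.symm (Quotient.mk'' y : Om B X)) (fun ω => eqvOfCard (hfib ω)) x
  refine ⟨π, fun x y => ?_⟩
  rw [mk_eq_iff, mk_eq_iff, ← hπ x, ← hπ y, φ.symm.injective.eq_iff]

lemma card_orbit_of_pi {π : Perm X} (hπ : ∀ x y, x ∈ orbit A y ↔ π x ∈ orbit B (π y)) (x : X) :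
    Nat.card (orbit A x) = Nat.card (orbit B (π x)) := by
  have h : orbit B (π x) = π '' orbit A x := by
    ext z
    constructor
    · intro hz
      refine ⟨π⁻¹ z, ?_, by simp⟩
      rw [hπ]
      simpa using hz
    · rintro ⟨u, hu, rfl⟩
      exact (hπ u x).1 hu
  rw [h, Nat.card_coe_set_eq, Nat.card_coe_set_eq, Set.ncard_image_of_injective _ π.injective]

/-- Conjugation by an orbit-matching permutation carries `A` into `B`. -/
theorem conj_mem [Fintype (Om A X)] [Fintype (Om B X)]
    (cA : ∀ a b : A, a * b = b * a) (cB : ∀ a b : B, a * b = b * a)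
    (sA : ∀ g ∈ A, Perm.sign g = 1) (sB : ∀ g ∈ B, Perm.sign g = 1)
    (hA : Nat.card A = ∏ ω : Om A X, sz ω) (hB : Nat.card B = ∏ ω : Om B X, sz ω)
    (pB : ∀ ω : Om B X, sz ω = 3 ∨ sz ω = 4)
    {π : Perm X} (hπ : ∀ x y, x ∈ orbit A y ↔ π x ∈ orbit B (π y)) (g : A) :
    π * (g : Perm X) * π⁻¹ ∈ B := by
  classical
  set σ : Perm X := π * (g : Perm X) * π⁻¹ with hσdef
  have hσa : ∀ z, σ z = π ((g : Perm X) (π⁻¹ z)) := fun z => rfl
  have hσo : ∀ z, σ z ∈ orbit B z := by
    intro z
    have h1 : (g : Perm X) (π⁻¹ z) ∈ orbit A (π⁻¹ z) := ⟨g, rfl⟩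
    have h2 := (hπ _ _).1 h1
    rwa [pi_inv] at h2
  obtain ⟨τ, hτ⟩ := exists_of_card cB hB
    (fun ω => ⟨σ (Quotient.out ω), mem_orbit_iff_out.mpr (hσo _)⟩)
  have hτ' : ∀ ω : Om B X, σ (Quotient.out ω) = (τ : Perm X) (Quotient.out ω) := fun ω => (hτ ω).symm
  suffices h : σ = (τ : Perm X) by
    rw [h]
    exact τ.2
  ext y
  obtain ⟨ω, hyω⟩ := exists_om (G := B) y
  have hmem : ∀ (k : B) (z : X), k • z ∈ orbit B z := fun k z => ⟨k, rfl⟩
  have horb : ω.orbit = orbit B (Quotient.out ω) := orbitRel.Quotient.orbit_eq_orbit_out ω Quotient.out_eq'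
  have hS : Nat.card ω.orbit = 3 ∨ Nat.card ω.orbit = 4 := pB ω
  have hcσ : ∀ z, σ z ∈ ω.orbit ↔ z ∈ ω.orbit := by
    intro z
    rw [horb]
    exact mem_iff_of_mem _ (hσo z)
  have hcτ : ∀ z, (τ : Perm X) z ∈ ω.orbit ↔ z ∈ ω.orbit := by
    intro z
    have h0 : (τ : Perm X) z ∈ orbit B z := hmem τ z
    rw [horb]
    exact mem_iff_of_mem _ h0
  refine uniq_block ω.orbit hS σ τ hcσ hcτ ?_ ?_ ?_ ?_ (out_mem ω) hyω (hτ' ω)
  · -- semiregularity for the conjugate
    intro u hu v hv huu
    have huv : v ∈ orbit B u := by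
      rw [horb] at hu hv
      exact mem_of_both hu hv
    have h1 : π⁻¹ v ∈ orbit A (π⁻¹ u) := by
      rw [hπ]
      simpa using huv
    have h2 : (g : Perm X) (π⁻¹ u) = π⁻¹ u := by
      rw [hσa] at huu
      rw [Perm.eq_inv_iff_eq.mpr huu] 
    have h3 := fix_of_fix cA g h1 h2
    show π ((g : Perm X) (π⁻¹ v)) = v
    have h4 : (g : Perm X) (π⁻¹ v) = π⁻¹ v := h3
    rw [h4, pi_inv]
  · intro u hu v hv huu
    have huv : v ∈ orbit B u := by
      rw [horb] at hu hv
      exact mem_of_both hu hv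
    exact fix_of_fix cB τ huv huu
  · intro h4 u hu
    have hu' : Nat.card (orbit A (π⁻¹ u)) = 4 := by
      rw [card_orbit_of_pi hπ, pi_inv, ← h4]
      have : (Quotient.mk'' u : Om B X) = ω := orbitRel.Quotient.mem_orbit.1 hu
      rw [← this, orbitRel.Quotient.orbit_mk]
    have h5 := four_of_even cA sA hA g (π⁻¹ u) hu'
    show π ((g : Perm X) (π⁻¹ (π ((g : Perm X) (π⁻¹ u))))) = u
    rw [inv_pi, h5, pi_inv]
  · intro h4 u hu
    have hu' : Nat.card (orbit B u) = 4 := by
      rw [← h4]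
      have : (Quotient.mk'' u : Om B X) = ω := orbitRel.Quotient.mem_orbit.1 hu
      rw [← this, orbitRel.Quotient.orbit_mk]
    exact four_of_even cB sB hB τ u hu'

/-- An even orbit-matching permutation. -/
lemma exists_even_pi [Fintype (Om A X)] (pA : ∀ ω : Om A X, sz ω = 3 ∨ sz ω = 4)
    {π : Perm X} (hπ : ∀ x y, x ∈ orbit A y ↔ π x ∈ orbit B (π y)) :
    ∃ π' : Perm X, Perm.sign π' = 1 ∧ ∀ x y, x ∈ orbit A y ↔ π' x ∈ orbit B (π' y) := by
  classical
  by_cases hs : Perm.sign π = 1
  · exact ⟨π, hs, hπ⟩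
  · have hne : π ≠ 1 := by
      rintro rfl
      simp at hs
    obtain ⟨x, -⟩ : ∃ x, π x ≠ x := by
      by_contra hcon
      push Not at hcon
      exact hne (Equiv.ext hcon)
    have h3 : 1 < (orbit A x).ncard := by
      have : sz (Quotient.mk'' x : Om A X) = 3 ∨ sz (Quotient.mk'' x : Om A X) = 4 := pA _
      rw [card_orbit_mk, Nat.card_coe_set_eq] at this
      omega
    obtain ⟨y, hy, hyx⟩ := Set.exists_ne_of_one_lt_ncard h3 x
    have hsw : ∀ z, swap y x z ∈ orbit A z := by
      intro z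
      by_cases hzy : z = y
      · subst hzy
        rw [swap_apply_left, MulAction.orbit_eq_iff.mpr hy]
        exact mem_orbit_self x
      by_cases hzx : z = x
      · subst hzx
        rw [swap_apply_right]
        exact hy
      · rw [swap_apply_of_ne_of_ne hzy hzx]
        exact mem_orbit_self z
    refine ⟨π * swap y x, ?_, ?_⟩
    · rw [map_mul, Perm.sign_swap hyx]
      have := (Int.units_eq_one_or (Perm.sign π)).resolve_left hs
      rw [this]
      decide
    · intro u v
      show u ∈ orbit A v ↔ π (swap y x u) ∈ orbit B (π (swap y x v))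
      rw [← hπ]
      have h1 : orbit A (swap y x u) = orbit A u := MulAction.orbit_eq_iff.mpr (hsw u)
      have h2 : orbit A (swap y x v) = orbit A v := MulAction.orbit_eq_iff.mpr (hsw v)
      rw [h2]
      rw [← MulAction.orbit_eq_iff, ← MulAction.orbit_eq_iff, h1]

end conj

end Cfsg.Agent.Lib.AltMaxAb
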