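import Mathlib

/-!
# Direct decompositions: abstract part

`Dec G`: the group `G` is the internal direct product of two nontrivial subgroups.  Two criteria
for indecomposability: a `p`-group whose centre has at most one nontrivial element, and the even
part of a product of "sign groups" with at least two factors.
-/

set_option autoImplicit false
set_option linter.unusedSectionVars false
set_option linter.unusedVariables false

namespace Cfsg.Agent.Lib.AltSylDec

open scoped commutatorElement

/-- Directly decomposable. -/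
def Dec (G : Type*) [Group G] : Prop :=
  ∃ S T : Subgroup G, S ≠ ⊥ ∧ T ≠ ⊥ ∧ (∀ a ∈ S, ∀ b ∈ T, a * b = b * a) ∧ S ⊓ T = ⊥ ∧ S ⊔ T = ⊤

theorem Dec.of_mulEquiv {G H : Type*} [Group G] [Group H] (e : G ≃* H) (h : Dec G) : Dec H := by
  obtain ⟨S, T, hS, hT, hc, hi, hs⟩ := h
  have he : Function.Injective (e : G →* H) := e.injective
  refine ⟨S.map (e : G →* H), T.map (e : G →* H), ?_, ?_, ?_, ?_, ?_⟩
  · intro h0
    exact hS ((Subgroup.map_eq_bot_iff_of_injective _ he).1 h0)
  · intro h0
    exact hT ((Subgroup.map_eq_bot_iff_of_injective _ he).1 h0)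
  · rintro _ ⟨a, ha, rfl⟩ _ ⟨b, hb, rfl⟩
    change e a * e b = e b * e a
    rw [← map_mul, ← map_mul, hc a ha b hb]
  · rw [← Subgroup.map_inf _ _ _ he, hi, Subgroup.map_bot]
  · rw [← Subgroup.map_sup, hs]
    exact Subgroup.map_top_of_surjective _ e.surjective

theorem normal_left_of_dec {G : Type*} [Group G] {S T : Subgroup G}
    (hc : ∀ a ∈ S, ∀ b ∈ T, a * b = b * a) (hs : S ⊔ T = ⊤) : S.Normal := by
  rw [← Subgroup.normalizer_eq_top_iff, eq_top_iff, ← hs]
  refine sup_le Subgroup.le_normalizer ?_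
  intro t ht
  rw [Subgroup.mem_normalizer_iff]
  intro h
  constructor
  · intro hh
    have : t * h * t⁻¹ = h := by
      rw [← hc h hh t ht]
      group
    rwa [this]
  · intro hh
    have h1 := hc _ hh t ht
    have : t * h * t⁻¹ = h := by
      have h2 : t * h * t⁻¹ * t = t * (t * h * t⁻¹) := h1
      have h3 : t * h = t * (t * h * t⁻¹) := by
        rw [← h2]
        group
      exact (mul_left_cancel h3).symm
    rwa [this] at hh

theorem exists_mul_of_dec {G : Type*} [Group G] {S T : Subgroup G}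
    (hc : ∀ a ∈ S, ∀ b ∈ T, a * b = b * a) (hs : S ⊔ T = ⊤) (x : G) : ∃ s ∈ S, ∃ t ∈ T, s * t = x := by
  haveI hT : T.Normal :=
    normal_left_of_dec (fun a ha b hb => (hc b hb a ha).symm) (by rwa [sup_comm])
  exact Subgroup.mem_sup_of_normal_right.1 (by rw [hs]; trivial)

theorem central_of_dec {G : Type*} [Group G] {S T : Subgroup G}
    (hc : ∀ a ∈ S, ∀ b ∈ T, a * b = b * a) (hs : S ⊔ T = ⊤) {a : G} (ha : a ∈ S)
    (hz : ∀ s ∈ S, a * s = s * a) (g : G) : g * a = a * g := by
  obtain ⟨s, hsS, t, htT, rfl⟩ := exists_mul_of_dec hc hs g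
  calc s * t * a = s * (t * a) := by group
    _ = s * (a * t) := by rw [hc a ha t htT]
    _ = (s * a) * t := by group
    _ = (a * s) * t := by rw [hz s hsS]
    _ = a * (s * t) := by group

/-- A `2`-group with at most one nontrivial central element is indecomposable. -/
theorem not_dec_of_center {G : Type*} [Group G] [Finite G] (hp : IsPGroup 2 G) (z : G)
    (hz : ∀ c : G, (∀ g : G, g * c = c * g) → c = 1 ∨ c = z) : ¬ Dec G := by
  rintro ⟨S, T, hS, hT, hc, hi, hs⟩
  haveI : Fact (Nat.Prime 2) := ⟨Nat.prime_two⟩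
  have hex : ∀ U : Subgroup G, U ≠ ⊥ → ∃ a ∈ U, a ≠ 1 ∧ ∀ s ∈ U, a * s = s * a := by
    intro U hU
    haveI : Nontrivial U := (Subgroup.nontrivial_iff_ne_bot U).2 hU
    have hpU : IsPGroup 2 U := hp.to_subgroup U
    haveI := hpU.center_nontrivial
    obtain ⟨⟨a, ha⟩, ha1⟩ := exists_ne (1 : Subgroup.center U)
    refine ⟨a.1, a.2, ?_, ?_⟩
    · intro h
      apply ha1
      apply Subtype.ext
      apply Subtype.ext
      exact h
    · intro s hs
      have := (Subgroup.mem_center_iff.1 ha) ⟨s, hs⟩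
      exact (congrArg Subtype.val this).symm
  obtain ⟨a, haS, ha1, haz⟩ := hex S hS
  obtain ⟨b, hbT, hb1, hbz⟩ := hex T hT
  have hcT : ∀ a ∈ T, ∀ b ∈ S, a * b = b * a := fun a ha b hb => (hc b hb a ha).symm
  have hsT : T ⊔ S = ⊤ := by rwa [sup_comm]
  have h1 := (hz a (central_of_dec hc hs haS haz)).resolve_left ha1
  have h2 := (hz b (central_of_dec hcT hsT hbT hbz)).resolve_left hb1
  have : a ∈ S ⊓ T := ⟨haS, by rw [h1, ← h2]; exact hbT⟩
  rw [hi] at this
  exact ha1 (Subgroup.mem_bot.1 this)

/-- A decomposition of a subgroup in the ambient group is one of the group itself. -/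
theorem exists_decomp_iff {A : Type*} [Group A] (P : Subgroup A) :
    (∃ S₁ S₂ : Subgroup A, S₁ ≠ ⊥ ∧ S₂ ≠ ⊥ ∧ S₁ ≤ P ∧ S₂ ≤ P ∧ (∀ a ∈ S₁, ∀ b ∈ S₂, a * b = b * a) ∧
      S₁ ⊓ S₂ = ⊥ ∧ S₁ ⊔ S₂ = P) ↔ Dec P := by
  have hinj : Function.Injective P.subtype := P.subtype_injective
  constructor
  · rintro ⟨S₁, S₂, h1, h2, hl1, hl2, hc, hi, hs⟩
    have hm : ∀ {U : Subgroup A}, U ≤ P → (U.subgroupOf P).map P.subtype = U := by
      intro U hU
      rw [Subgroup.map_subgroupOf_eq_of_le hU]
    refine ⟨S₁.subgroupOf P, S₂.subgroupOf P, ?_, ?_, ?_, ?_, ?_⟩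
    · intro h0
      apply h1
      rw [← hm hl1, h0, Subgroup.map_bot]
    · intro h0
      apply h2
      rw [← hm hl2, h0, Subgroup.map_bot]
    · intro a ha b hb
      apply Subtype.ext
      exact hc a.1 ha b.1 hb
    · apply Subgroup.map_injective hinj
      rw [Subgroup.map_inf _ _ _ hinj, hm hl1, hm hl2, hi, Subgroup.map_bot]
    · apply Subgroup.map_injective hinj
      rw [Subgroup.map_sup, hm hl1, hm hl2, hs, ← MonoidHom.range_eq_map, Subgroup.range_subtype]
  · rintro ⟨S, T, hS, hT, hc, hi, hs⟩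
    refine ⟨S.map P.subtype, T.map P.subtype, ?_, ?_, ?_, ?_, ?_, ?_, ?_⟩
    · intro h0
      exact hS ((Subgroup.map_eq_bot_iff_of_injective _ hinj).1 h0)
    · intro h0
      exact hT ((Subgroup.map_eq_bot_iff_of_injective _ hinj).1 h0)
    · rintro _ ⟨a, -, rfl⟩
      exact a.2
    · rintro _ ⟨a, -, rfl⟩
      exact a.2
    · rintro _ ⟨a, ha, rfl⟩ _ ⟨b, hb, rfl⟩
      exact congrArg Subtype.val (hc a ha b hb)
    · rw [← Subgroup.map_inf _ _ _ hinj, hi, Subgroup.map_bot]
    · rw [← Subgroup.map_sup, hs, ← MonoidHom.range_eq_map, Subgroup.range_subtype]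

section product

variable {I : Type} [Fintype I] [DecidableEq I] {W : I → Type} [∀ i, Group (W i)]
variable (sg : ∀ i, W i →* ℤˣ)

/-- The partial sign of an element of the product. -/
def psgn (A : Finset I) : (Π i, W i) →* ℤˣ where
  toFun w := ∏ i ∈ A, sg i (w i)
  map_one' := by simp
  map_mul' a b := by simp [Finset.prod_mul_distrib]

theorem psgn_apply (A : Finset I) (w : Π i, W i) : psgn sg A w = ∏ i ∈ A, sg i (w i) := rfl

theorem psgn_single (A : Finset I) (i : I) (g : W i) :
    psgn sg A (Pi.mulSingle i g) = if i ∈ A then sg i g else 1 := by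
  rw [psgn_apply]
  split_ifs with h
  · rw [Finset.prod_eq_single i]
    · simp
    · intro k _ hk
      rw [Pi.mulSingle_eq_of_ne hk, map_one]
    · intro h'
      exact absurd h h'
  · apply Finset.prod_eq_one
    intro k hk
    have : k ≠ i := fun e => h (e ▸ hk)
    rw [Pi.mulSingle_eq_of_ne this, map_one]

/-- The hypotheses on the factors. -/
structure SignFactors : Prop where
  /-- central elements are even -/
  even_center : ∀ i, ∀ z : W i, (∀ g, g * z = z * g) → sg i z = 1
  /-- central indecomposability -/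
  ci : ∀ i, ∀ C D : Subgroup (W i), C.Normal → D.Normal → (∀ a ∈ C, ∀ b ∈ D, a * b = b * a) →
    C ⊔ D = ⊤ → C = ⊤ ∨ D = ⊤
  /-- central elements are commutators with an even element -/
  comm : ∀ i, ∀ z : W i, (∀ g, g * z = z * g) → ∃ u s : W i, sg i s = 1 ∧ ⁅u, s⁆ = z
  /-- there are odd elements -/
  odd : ∀ i, ∃ o : W i, sg i o = -1

variable {sg}

/-- The even part of the product. -/
abbrev evenPart (sg : ∀ i, W i →* ℤˣ) : Subgroup (Π i, W i) := (psgn sg Finset.univ).ker

theorem mem_evenPart {w : Π i, W i} : w ∈ evenPart sg ↔ psgn sg Finset.univ w = 1 := MonoidHom.mem_ker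

theorem mem_evenPart_single {i : I} {g : W i} (h : sg i g = 1) :
    (Pi.mulSingle i g : Π i, W i) ∈ evenPart sg := by
  rw [mem_evenPart, psgn_single, if_pos (Finset.mem_univ _), h]

theorem mem_evenPart_two {i j : I} (hij : i ≠ j) {g : W i} {h : W j} (hg : sg i g = -1)
    (hh : sg j h = -1) : ((Pi.mulSingle i g : Π i, W i) * Pi.mulSingle j h) ∈ evenPart sg := by
  rw [mem_evenPart, map_mul, psgn_single, psgn_single, if_pos (Finset.mem_univ _),
    if_pos (Finset.mem_univ _), hg, hh]
  simp

/-- Coordinates of the even part. -/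
def coordE (i : I) : evenPart sg →* W i := (Pi.evalMonoidHom W i).comp (evenPart sg).subtype

theorem coordE_apply (i : I) (x : evenPart sg) : coordE i x = x.1 i := rfl

/-- Even lifts of elements of a factor. -/
theorem exists_lift (hF : SignFactors sg) {i j : I} (hij : i ≠ j) (g : W i) :
    ∃ w : Π k, W k, w ∈ evenPart sg ∧ w i = g ∧ ∀ k, k ≠ i → ∀ s : W k, ⁅w k, s⁆ = 1 ∨ k = j := by
  rcases Int.units_eq_one_or (sg i g) with h | h
  · refine ⟨Pi.mulSingle i g, mem_evenPart_single h, by simp, ?_⟩
    intro k hk s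
    left
    rw [Pi.mulSingle_eq_of_ne hk, commutatorElement_def]
    group
  · obtain ⟨o, ho⟩ := hF.odd j
    refine ⟨(Pi.mulSingle i g : Π i, W i) * Pi.mulSingle j o, mem_evenPart_two hij h ho, ?_, ?_⟩
    · simp [Pi.mul_apply, Pi.mulSingle_eq_of_ne hij]
    · intro k hk s
      by_cases hkj : k = j
      · exact Or.inr hkj
      · left
        rw [Pi.mul_apply, Pi.mulSingle_eq_of_ne hk, Pi.mulSingle_eq_of_ne hkj, commutatorElement_def]
        group

theorem coordE_surjective (hF : SignFactors sg) {i j : I} (hij : i ≠ j) :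
    Function.Surjective (coordE (sg := sg) i) := by
  intro g
  obtain ⟨w, hw, hwi, -⟩ := exists_lift hF hij g
  exact ⟨⟨w, hw⟩, hwi⟩

/-- Single central elements lie in the derived subgroup of the even part. -/
theorem single_mem_comm (hF : SignFactors sg) {i j : I} (hij : i ≠ j) (z : W i)
    (hz : ∀ g, g * z = z * g) :
    (Pi.mulSingle i z : Π i, W i) ∈ (commutator (evenPart sg)).map (evenPart sg).subtype := by
  obtain ⟨u, s, hs, huz⟩ := hF.comm i z hz
  obtain ⟨w, hw, hwi, -⟩ := exists_lift hF hij u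
  have hs' := mem_evenPart_single (i := i) hs
  refine ⟨⁅(⟨w, hw⟩ : evenPart sg), (⟨_, hs'⟩ : evenPart sg)⁆, ?_, ?_⟩
  · exact Subgroup.commutator_mem_commutator trivial trivial
  · funext k
    change ⁅w, (Pi.mulSingle i s : Π i, W i)⁆ k = _
    by_cases hk : k = i
    · subst hk
      simp only [commutatorElement_def, Pi.mul_apply, Pi.inv_apply, Pi.mulSingle_eq_same, hwi]
      rw [← huz, commutatorElement_def]
    · simp only [commutatorElement_def, Pi.mul_apply, Pi.inv_apply, Pi.mulSingle_eq_of_ne hk]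
      group

/-- A factor consisting of central elements is trivial. -/
theorem eq_bot_of_central (hF : SignFactors sg) {i j : I} (hij : i ≠ j) {S T : Subgroup (evenPart sg)}
    (hc : ∀ a ∈ S, ∀ b ∈ T, a * b = b * a) (hi : S ⊓ T = ⊥) (hs : S ⊔ T = ⊤)
    (hcen : ∀ t ∈ T, ∀ k, ∀ g : W k, g * t.1 k = t.1 k * g) : T = ⊥ := by
  -- central in the even part
  have hcenH : ∀ t ∈ T, ∀ x : evenPart sg, t * x = x * t := by
    intro t ht x
    apply Subtype.ext
    funext k
    exact (hcen t ht k (x.1 k)).symm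
  -- the derived subgroup lies in `S`
  have hder : commutator (evenPart sg) ≤ S := by
    rw [commutator_def, Subgroup.commutator_le]
    intro a _ b _
    obtain ⟨s, hsS, t, htT, rfl⟩ := exists_mul_of_dec hc hs a
    obtain ⟨s', hsS', t', htT', rfl⟩ := exists_mul_of_dec hc hs b
    have e1 : ⁅s * t, s' * t'⁆ = ⁅s, s'⁆ := by
      have h1 := hcenH t htT
      have h2 := hcenH t' htT'
      simp only [commutatorElement_def]
      calc s * t * (s' * t') * (s * t)⁻¹ * (s' * t')⁻¹
          = s * (t * (s' * t') * t⁻¹) * s⁻¹ * (s' * t')⁻¹ := by group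
        _ = s * (s' * t') * s⁻¹ * (s' * t')⁻¹ := by
            rw [h1 (s' * t')]
            group
        _ = s * s' * (t' * s⁻¹ * t'⁻¹) * s'⁻¹ := by group
        _ = s * s' * s⁻¹ * s'⁻¹ := by
            rw [h2 s⁻¹]
            group
    rw [e1, commutatorElement_def]
    exact S.mul_mem (S.mul_mem (S.mul_mem hsS hsS') (S.inv_mem hsS)) (S.inv_mem hsS')
  rw [eq_bot_iff]
  intro t ht
  rw [Subgroup.mem_bot]
  -- `t` lies in the derived subgroup
  let D := (commutator (evenPart sg)).map (evenPart sg).subtype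
  have hA : ∀ A : Finset I, (fun k => if k ∈ A then t.1 k else 1 : Π k, W k) ∈ D := by
    intro A
    induction A using Finset.induction_on with
    | empty =>
      have : (fun k => if k ∈ (∅ : Finset I) then t.1 k else 1 : Π k, W k) = 1 := by
        funext k
        simp
      rw [this]
      exact D.one_mem
    | insert a A ha ih =>
      have : (fun k => if k ∈ insert a A then t.1 k else 1 : Π k, W k) =
          (fun k => if k ∈ A then t.1 k else 1 : Π k, W k) * Pi.mulSingle a (t.1 a) := by
        funext k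
        by_cases hka : k = a
        · subst hka
          simp [ha]
        · simp [Finset.mem_insert, hka, Pi.mulSingle_eq_of_ne hka]
      rw [this]
      refine D.mul_mem ih ?_
      -- choose a second index
      by_cases hai : a = i
      · subst hai
        exact single_mem_comm hF hij _ (hcen t ht a)
      · exact single_mem_comm hF hai _ (hcen t ht a)
  have huniv := hA Finset.univ
  have : (fun k => if k ∈ (Finset.univ : Finset I) then t.1 k else 1 : Π k, W k) = t.1 := by
    funext k
    simp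
  rw [this] at huniv
  obtain ⟨y, hy, hyt⟩ := huniv
  have hyt' : y = t := Subtype.ext hyt
  have ht2 : t ∈ S ⊓ T := ⟨hder (hyt' ▸ hy), ht⟩
  rw [hi] at ht2
  exact Subgroup.mem_bot.1 ht2

/-- **The even part of a product of at least two factors is indecomposable.** -/
theorem not_dec_evenPart (hF : SignFactors sg) {i j : I} (hij : i ≠ j) : ¬ Dec (evenPart sg) := by
  classical
  rintro ⟨S, T, hS, hT, hc, hi, hs⟩
  have hcT : ∀ a ∈ T, ∀ b ∈ S, a * b = b * a := fun a ha b hb => (hc b hb a ha).symm
  have hsT : T ⊔ S = ⊤ := by rwa [sup_comm]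
  have hiT : T ⊓ S = ⊥ := by rwa [inf_comm]
  haveI hSn : S.Normal := normal_left_of_dec hc hs
  haveI hTn : T.Normal := normal_left_of_dec hcT hsT
  have hsurj : ∀ k, Function.Surjective (coordE (sg := sg) k) := by
    intro k
    by_cases hki : k = i
    · subst hki
      exact coordE_surjective hF hij
    · exact coordE_surjective hF hki
  -- the alternative in each factor
  have halt : ∀ k, S.map (coordE k) = ⊤ ∨ T.map (coordE k) = ⊤ := by
    intro k
    refine hF.ci k _ _ (hSn.map _ (hsurj k)) (hTn.map _ (hsurj k)) ?_ ?_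
    · rintro _ ⟨a, ha, rfl⟩ _ ⟨b, hb, rfl⟩
      rw [← map_mul, ← map_mul, hc a ha b hb]
    · rw [← Subgroup.map_sup, hs]
      exact Subgroup.map_top_of_surjective _ (hsurj k)
  have hcent : ∀ k, S.map (coordE k) = ⊤ → ∀ t ∈ T, ∀ g : W k, g * t.1 k = t.1 k * g := by
    intro k hk t ht g
    have hg : g ∈ S.map (coordE k) := by rw [hk]; trivial
    obtain ⟨s, hsS, rfl⟩ := hg
    have := congrArg (coordE k) (hc s hsS t ht)
    rwa [map_mul, map_mul] at this
  have hcent' : ∀ k, T.map (coordE k) = ⊤ → ∀ s ∈ S, ∀ g : W k, g * s.1 k = s.1 k * g := by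
    intro k hk s hs' g
    have hg : g ∈ T.map (coordE k) := by rw [hk]; trivial
    obtain ⟨t, htT, rfl⟩ := hg
    have := congrArg (coordE k) (hc s hs' t htT)
    rw [map_mul, map_mul] at this
    exact this.symm
  -- the character
  let IS : Finset I := Finset.univ.filter (fun k => S.map (coordE k) = ⊤)
  have hχT : ∀ t ∈ T, psgn sg IS t.1 = 1 := by
    intro t ht
    rw [psgn_apply]
    apply Finset.prod_eq_one
    intro k hk
    have hk' : S.map (coordE k) = ⊤ := (Finset.mem_filter.1 hk).2
    exact hF.even_center k _ (hcent k hk' t ht)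
  have hχS : ∀ s ∈ S, psgn sg IS s.1 = 1 := by
    intro s hs'
    have h1 : psgn sg Finset.univ s.1 = 1 := s.2
    rw [psgn_apply, ← Finset.prod_filter_mul_prod_filter_not Finset.univ
      (fun k => S.map (coordE k) = ⊤)] at h1
    rw [psgn_apply]
    have h2 : ∏ k ∈ Finset.univ.filter (fun k => ¬ S.map (coordE k) = ⊤), sg k (s.1 k) = 1 := by
      apply Finset.prod_eq_one
      intro k hk
      have hk' := (Finset.mem_filter.1 hk).2
      exact hF.even_center k _ (hcent' k ((halt k).resolve_left hk') s hs')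
    rwa [h2, mul_one] at h1
  have hχ : ∀ x : evenPart sg, psgn sg IS x.1 = 1 := by
    intro x
    obtain ⟨s, hsS, t, htT, rfl⟩ := exists_mul_of_dec hc hs x
    have : ((s * t : evenPart sg) : Π k, W k) = s.1 * t.1 := rfl
    rw [this, map_mul, hχS s hsS, hχT t htT, one_mul]
  -- no mixed case
  have hnomix : ∀ a b : I, S.map (coordE a) = ⊤ → ¬ (S.map (coordE b) = ⊤) → False := by
    intro a b ha hb
    have hab : a ≠ b := fun e => hb (e ▸ ha)
    obtain ⟨oa, hoa⟩ := hF.odd a
    obtain ⟨ob, hob⟩ := hF.odd b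
    have hx := hχ ⟨_, mem_evenPart_two hab hoa hob⟩
    simp only [map_mul] at hx
    have haI : a ∈ IS := Finset.mem_filter.2 ⟨Finset.mem_univ _, ha⟩
    have hbI : b ∉ IS := fun h => hb (Finset.mem_filter.1 h).2
    rw [psgn_single, psgn_single, if_pos haI, if_neg hbI, hoa, mul_one] at hx
    exact absurd hx (by decide)
  by_cases hex : ∃ a, S.map (coordE a) = ⊤
  · obtain ⟨a, ha⟩ := hex
    have hall : ∀ b, S.map (coordE b) = ⊤ := by
      intro b
      by_contra hb
      exact hnomix a b ha hb
    exact hT (eq_bot_of_central hF hij hc hi hs (fun t ht k g => hcent k (hall k) t ht g))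
  · push Not at hex
    have hall : ∀ b, T.map (coordE b) = ⊤ := fun b => (halt b).resolve_left (hex b)
    exact hS (eq_bot_of_central hF hij hcT hiT hsT (fun t ht k g => hcent' k (hall k) t ht g))

/-- A product with two nontrivial factors is decomposable. -/
theorem dec_pi {i j : I} (hij : i ≠ j) (hi : Nontrivial (W i)) (hj : Nontrivial (W j)) :
    Dec (Π k, W k) := by
  refine ⟨(MonoidHom.mulSingle W i).range, (Pi.evalMonoidHom W i).ker, ?_, ?_, ?_, ?_, ?_⟩
  · intro h0
    obtain ⟨g, hg⟩ := exists_ne (1 : W i)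
    have : (MonoidHom.mulSingle W i) g ∈ (MonoidHom.mulSingle W i).range := ⟨g, rfl⟩
    rw [h0, Subgroup.mem_bot] at this
    have h1 := congrFun this i
    simp at h1
    exact hg h1
  · intro h0
    obtain ⟨g, hg⟩ := exists_ne (1 : W j)
    have : (Pi.mulSingle j g : Π k, W k) ∈ (Pi.evalMonoidHom W i).ker := by
      rw [MonoidHom.mem_ker]
      change (Pi.mulSingle j g : Π k, W k) i = 1
      rw [Pi.mulSingle_eq_of_ne hij]
    rw [h0, Subgroup.mem_bot] at this
    have h1 := congrFun this j
    simp at h1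
    exact hg h1
  · rintro _ ⟨g, rfl⟩ b hb
    have hbi : b i = 1 := hb
    funext k
    by_cases hk : k = i
    · subst hk
      simp [hbi]
    · have : (MonoidHom.mulSingle W i) g k = 1 := Pi.mulSingle_eq_of_ne hk g
      rw [Pi.mul_apply, Pi.mul_apply, this, one_mul, mul_one]
  · rw [eq_bot_iff]
    rintro _ ⟨⟨g, rfl⟩, hb⟩
    have hbi : (Pi.mulSingle i g : Π k, W k) i = 1 := hb
    rw [Pi.mulSingle_eq_same] at hbi
    rw [Subgroup.mem_bot]
    subst hbi
    simp
  · rw [eq_top_iff]
    intro w _
    have h1 : (Pi.mulSingle i (w i) : Π k, W k) ∈ (MonoidHom.mulSingle W i).range := ⟨w i, rfl⟩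
    have h2 : (Pi.mulSingle i (w i) : Π k, W k)⁻¹ * w ∈ (Pi.evalMonoidHom W i).ker := by
      rw [MonoidHom.mem_ker]
      change ((Pi.mulSingle i (w i) : Π k, W k)⁻¹ * w) i = 1
      simp
    have h3 := Subgroup.mul_mem_sup h1 h2
    simpa using h3

end product

/-- The even part of a finite group with a surjective sign has half the order. -/
theorem two_mul_card_ker {G : Type*} [Group G] [Finite G] (f : G →* ℤˣ) {o : G} (ho : f o = -1) :
    2 * Nat.card f.ker = Nat.card G := by
  have hsurj : Function.Surjective f := by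
    intro u
    rcases Int.units_eq_one_or u with rfl | rfl
    · exact ⟨1, map_one f⟩
    · exact ⟨o, ho⟩
  have h1 := f.ker.card_mul_index
  have h2 : f.ker.index = 2 := by
    rw [Subgroup.index_ker, MonoidHom.range_eq_top.2 hsurj, Subgroup.card_top]
    simp [Nat.card_eq_fintype_card]
  rw [h2] at h1
  omega

end Cfsg.Agent.Lib.AltSylDec
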