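import Mathlib
import Cfsg.Agent.Lib.AltSylDecA

/-!
# Iterated wreath products with the two-point group

The subgroup `wr K` of `Perm (Y ⊕ Y)` and the properties of the tower `K, wr K, wr (wr K), ...`
needed for the direct decompositions of the Sylow `2`-subgroups of alternating groups.
-/

set_option autoImplicit false
set_option linter.unusedSectionVars false
set_option linter.unusedVariables false

namespace Cfsg.Agent.Lib.AltSylDec

open Equiv
open scoped commutatorElement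

section wreath

variable {Y : Type}

/-- Pairs of permutations acting on the two copies. -/
abbrev bs (g h : Perm Y) : Perm (Y ⊕ Y) := Perm.sumCongr g h

/-- The exchange of the two copies. -/
def sw : Perm (Y ⊕ Y) := Equiv.sumComm Y Y

@[simp] theorem sw_inl (y : Y) : (sw : Perm (Y ⊕ Y)) (Sum.inl y) = Sum.inr y := rfl
@[simp] theorem sw_inr (y : Y) : (sw : Perm (Y ⊕ Y)) (Sum.inr y) = Sum.inl y := rfl

theorem bs_mul (g h g' h' : Perm Y) : bs g h * bs g' h' = bs (g * g') (h * h') :=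
  Perm.sumCongr_mul _ _ _ _

theorem bs_one : bs (1 : Perm Y) 1 = 1 := Perm.sumCongr_one

theorem bs_inv (g h : Perm Y) : (bs g h)⁻¹ = bs g⁻¹ h⁻¹ := Perm.sumCongr_inv _ _

theorem sw_mul_bs (g h : Perm Y) : sw * bs g h = bs h g * sw := by
  ext (y | y) <;> rfl

theorem sw_mul_sw : (sw : Perm (Y ⊕ Y)) * sw = 1 := by
  ext (y | y) <;> rfl

theorem sw_inv : (sw : Perm (Y ⊕ Y))⁻¹ = sw := by
  rw [inv_eq_iff_mul_eq_one, sw_mul_sw]

theorem bs_inj {g h g' h' : Perm Y} (e : bs g h = bs g' h') : g = g' ∧ h = h' :=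
  by
  constructor
  · ext y
    have := congrArg (fun σ : Perm (Y ⊕ Y) => σ (Sum.inl y)) e
    simpa using this
  · ext y
    have := congrArg (fun σ : Perm (Y ⊕ Y) => σ (Sum.inr y)) e
    simpa using this

theorem bs_ne_mul_sw [Nonempty Y] (g h g' h' : Perm Y) : bs g h ≠ bs g' h' * sw := by
  intro e
  obtain ⟨y⟩ := ‹Nonempty Y›
  have := congrArg (fun σ : Perm (Y ⊕ Y) => σ (Sum.inl y)) e
  simp at this

/-- The wreath product with the group of order two. -/
def wr (K : Subgroup (Perm Y)) : Subgroup (Perm (Y ⊕ Y)) where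
  carrier := {σ | ∃ g ∈ K, ∃ h ∈ K, σ = bs g h ∨ σ = bs g h * sw}
  mul_mem' := by
    rintro _ _ ⟨g, hg, h, hh, rfl | rfl⟩ ⟨g', hg', h', hh', rfl | rfl⟩
    · exact ⟨_, K.mul_mem hg hg', _, K.mul_mem hh hh', Or.inl (bs_mul _ _ _ _)⟩
    · exact ⟨_, K.mul_mem hg hg', _, K.mul_mem hh hh', Or.inr (by rw [← mul_assoc, bs_mul])⟩
    · refine ⟨_, K.mul_mem hg hh', _, K.mul_mem hh hg', Or.inr ?_⟩
      rw [mul_assoc, sw_mul_bs, ← mul_assoc, bs_mul]
    · refine ⟨_, K.mul_mem hg hh', _, K.mul_mem hh hg', Or.inl ?_⟩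
      rw [show bs g h * sw * (bs g' h' * sw) = bs g h * (sw * bs g' h') * sw by group, sw_mul_bs,
        show bs g h * (bs h' g' * sw) * sw = bs g h * bs h' g' * (sw * sw) by group, sw_mul_sw,
        mul_one, bs_mul]
  one_mem' := ⟨1, K.one_mem, 1, K.one_mem, Or.inl bs_one.symm⟩
  inv_mem' := by
    rintro _ ⟨g, hg, h, hh, rfl | rfl⟩
    · exact ⟨_, K.inv_mem hg, _, K.inv_mem hh, Or.inl (bs_inv _ _)⟩
    · refine ⟨_, K.inv_mem hh, _, K.inv_mem hg, Or.inr ?_⟩
      rw [mul_inv_rev, sw_inv, bs_inv, sw_mul_bs]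

variable {K : Subgroup (Perm Y)}

theorem mem_wr {σ : Perm (Y ⊕ Y)} :
    σ ∈ wr K ↔ ∃ g ∈ K, ∃ h ∈ K, σ = bs g h ∨ σ = bs g h * sw := Iff.rfl

theorem bs_mem {g h : Perm Y} (hg : g ∈ K) (hh : h ∈ K) : bs g h ∈ wr K :=
  ⟨g, hg, h, hh, Or.inl rfl⟩

theorem sw_mem : (sw : Perm (Y ⊕ Y)) ∈ wr K :=
  ⟨1, K.one_mem, 1, K.one_mem, Or.inr (by rw [bs_one, one_mul])⟩

/-- The order of the wreath product. -/
theorem card_wr [Nonempty Y] [Finite K] : Nat.card (wr K) = 2 * Nat.card K ^ 2 := by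
  classical
  let f : (K × K) × Bool → wr K := fun x =>
    match x.2 with
    | false => ⟨bs x.1.1.1 x.1.2.1, bs_mem x.1.1.2 x.1.2.2⟩
    | true => ⟨bs x.1.1.1 x.1.2.1 * sw, (wr K).mul_mem (bs_mem x.1.1.2 x.1.2.2) sw_mem⟩
  have hf : Function.Bijective f := by
    constructor
    · rintro ⟨⟨a, b⟩, u⟩ ⟨⟨c, d⟩, v⟩ h
      cases u <;> cases v
      · have h1 := bs_inj (congrArg Subtype.val h)
        simp only [Prod.mk.injEq, and_true]
        exact ⟨Subtype.ext h1.1, Subtype.ext h1.2⟩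
      · exact absurd (congrArg Subtype.val h) (bs_ne_mul_sw _ _ _ _)
      · exact absurd (congrArg Subtype.val h).symm (bs_ne_mul_sw _ _ _ _)
      · have h0 := mul_right_cancel (congrArg Subtype.val h)
        have h1 := bs_inj h0
        simp only [Prod.mk.injEq, and_true]
        exact ⟨Subtype.ext h1.1, Subtype.ext h1.2⟩
    · rintro ⟨σ, g, hg, h, hh, rfl | rfl⟩
      · exact ⟨((⟨g, hg⟩, ⟨h, hh⟩), false), rfl⟩
      · exact ⟨((⟨g, hg⟩, ⟨h, hh⟩), true), rfl⟩
  rw [← Nat.card_congr (Equiv.ofBijective f hf), Nat.card_prod, Nat.card_prod]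
  simp [Nat.card_eq_fintype_card]
  ring

/-- `z` is the unique nontrivial central element. -/
structure CentTwo (K : Subgroup (Perm Y)) (z : Perm Y) : Prop where
  mem : z ∈ K
  ne : z ≠ 1
  sq : z * z = 1
  comm : ∀ g ∈ K, g * z = z * g
  uniq : ∀ c ∈ K, (∀ g ∈ K, g * c = c * g) → c = 1 ∨ c = z

/-- The centre of the wreath product. -/
theorem center_wr {ζ : Perm Y} (hζ : CentTwo K ζ) {c : Perm (Y ⊕ Y)} (hc : c ∈ wr K)
    (hz : ∀ g ∈ wr K, g * c = c * g) : c = 1 ∨ c = bs ζ ζ := by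
  obtain ⟨a, ha, b, hb, rfl | rfl⟩ := hc
  · -- in the base
    have h1 : ∀ g ∈ K, g * a = a * g := by
      intro g hg
      have := hz _ (bs_mem hg K.one_mem)
      rw [bs_mul, bs_mul] at this
      exact (bs_inj this).1
    have h2 : ∀ g ∈ K, g * b = b * g := by
      intro g hg
      have := hz _ (bs_mem K.one_mem hg)
      rw [bs_mul, bs_mul] at this
      exact (bs_inj this).2
    have h3 : a = b := by
      have := hz _ (sw_mem (K := K))
      rw [sw_mul_bs] at this
      exact ((bs_inj (mul_right_cancel this)).1).symm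
    subst h3
    rcases hζ.uniq a ha h1 with rfl | rfl
    · exact Or.inl bs_one
    · exact Or.inr rfl
  · -- outside the base: impossible
    exfalso
    have := hz _ (bs_mem hζ.mem K.one_mem)
    have e1 : bs ζ 1 * (bs a b * sw) = bs (ζ * a) b * sw := by
      rw [← mul_assoc, bs_mul, one_mul]
    have e2 : bs a b * sw * bs ζ 1 = bs a (b * ζ) * sw := by
      rw [mul_assoc, sw_mul_bs, ← mul_assoc, bs_mul, mul_one]
    rw [e1, e2] at this
    have h1 := (bs_inj (mul_right_cancel this)).1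
    exact hζ.ne (mul_right_cancel (h1.trans (one_mul a).symm))

theorem bs_central {ζ : Perm Y} (hζ : CentTwo K ζ) : ∀ g ∈ wr K, g * bs ζ ζ = bs ζ ζ * g := by
  rintro _ ⟨a, ha, b, hb, rfl | rfl⟩
  · rw [bs_mul, bs_mul, hζ.comm a ha, hζ.comm b hb]
  · rw [mul_assoc, sw_mul_bs, ← mul_assoc, bs_mul, ← mul_assoc, bs_mul, hζ.comm a ha, hζ.comm b hb]

theorem centTwo_wr [Nonempty Y] {ζ : Perm Y} (hζ : CentTwo K ζ) : CentTwo (wr K) (bs ζ ζ) where
  mem := bs_mem hζ.mem hζ.mem
  ne := by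
    intro h
    rw [← bs_one] at h
    exact hζ.ne (bs_inj h).1
  sq := by rw [bs_mul, hζ.sq, bs_one]
  comm := bs_central hζ
  uniq := fun c hc hz => center_wr hζ hc hz

/-- The base case. -/
theorem centTwo_bot [Nonempty Y] : CentTwo (wr (⊥ : Subgroup (Perm Y))) sw where
  mem := sw_mem
  ne := by
    intro h
    obtain ⟨y⟩ := ‹Nonempty Y›
    have := congrArg (fun σ : Perm (Y ⊕ Y) => σ (Sum.inl y)) h
    simp at this
  sq := sw_mul_sw
  comm := by
    rintro _ ⟨a, ha, b, hb, rfl | rfl⟩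
    · rw [Subgroup.mem_bot] at ha hb
      subst ha hb
      rw [bs_one, one_mul, mul_one]
    · rw [Subgroup.mem_bot] at ha hb
      subst ha hb
      rw [bs_one, one_mul]
  uniq := by
    rintro _ ⟨a, ha, b, hb, rfl | rfl⟩ _
    · rw [Subgroup.mem_bot] at ha hb
      subst ha hb
      exact Or.inl bs_one
    · rw [Subgroup.mem_bot] at ha hb
      subst ha hb
      right
      rw [bs_one, one_mul]

/-- The commutator producing the central element. -/
theorem comm_bs_sw {ζ : Perm Y} (hζ : CentTwo K ζ) : ⁅bs ζ 1, (sw : Perm (Y ⊕ Y))⁆ = bs ζ ζ := by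
  rw [commutatorElement_def, sw_inv, bs_inv, mul_assoc (bs ζ 1), sw_mul_bs, ← mul_assoc, bs_mul,
    mul_assoc, sw_mul_sw, mul_one, inv_one, one_mul, mul_one]
  have : ζ⁻¹ = ζ := inv_eq_of_mul_eq_one_left hζ.sq
  rw [this]

/-- In the wreath product: an element outside the base centralizing a normal subgroup. -/
theorem normal_base_central {ζ : Perm Y} (hζ : CentTwo K ζ) (D : Subgroup (wr K)) (hD : D.Normal)
    {a b : Perm Y} (ha : a ∈ K) (hb : b ∈ K)
    (hx : ∀ d ∈ D, (bs a b * sw) * d.1 = d.1 * (bs a b * sw))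
    {d : wr K} (hd : d ∈ D) {d₁ d₂ : Perm Y} (h1 : d₁ ∈ K) (h2 : d₂ ∈ K) (hdd : d.1 = bs d₁ d₂) :
    d.1 = 1 ∨ d.1 = bs ζ ζ := by
  -- the commutation relation
  have key : ∀ (u v : Perm Y), (bs u v) ∈ wr K → (∃ e : wr K, e ∈ D ∧ e.1 = bs u v) →
      a * v = u * a ∧ b * u = v * b := by
    rintro u v - ⟨e, he, hev⟩
    have h := hx e he
    rw [hev] at h
    have e1 : bs a b * sw * bs u v = bs (a * v) (b * u) * sw := by
      rw [mul_assoc, sw_mul_bs, ← mul_assoc, bs_mul]
    have e2 : bs u v * (bs a b * sw) = bs (u * a) (v * b) * sw := by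
      rw [← mul_assoc, bs_mul]
    rw [e1, e2] at h
    exact bs_inj (mul_right_cancel h)
  have h0 := key d₁ d₂ (hdd ▸ d.2) ⟨d, hd, hdd⟩
  -- conjugating by the base
  have hc1 : ∀ g ∈ K, g * d₁ = d₁ * g := by
    intro g hg
    let γ : wr K := ⟨bs g 1, bs_mem hg K.one_mem⟩
    have h3 := key (g * d₁ * g⁻¹) d₂ (bs_mem (K.mul_mem (K.mul_mem hg h1) (K.inv_mem hg)) h2)
      ⟨γ * d * γ⁻¹, hD.conj_mem d hd γ, by
        change bs g 1 * d.1 * (bs g 1)⁻¹ = _
        rw [hdd, bs_inv, bs_mul, bs_mul]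
        simp⟩
    have h4 : g * d₁ * g⁻¹ * a = d₁ * a := h3.1.symm.trans h0.1
    have h5 := mul_right_cancel h4
    calc g * d₁ = g * d₁ * g⁻¹ * g := by group
      _ = d₁ * g := by rw [h5]
  have hc2 : ∀ g ∈ K, g * d₂ = d₂ * g := by
    intro g hg
    let γ : wr K := ⟨bs 1 g, bs_mem K.one_mem hg⟩
    have h3 := key d₁ (g * d₂ * g⁻¹) (bs_mem h1 (K.mul_mem (K.mul_mem hg h2) (K.inv_mem hg)))
      ⟨γ * d * γ⁻¹, hD.conj_mem d hd γ, by
        change bs 1 g * d.1 * (bs 1 g)⁻¹ = _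
        rw [hdd, bs_inv, bs_mul, bs_mul]
        simp⟩
    have h4 : g * d₂ * g⁻¹ * b = d₂ * b := h3.2.symm.trans h0.2
    have h5 := mul_right_cancel h4
    calc g * d₂ = g * d₂ * g⁻¹ * g := by group
      _ = d₂ * g := by rw [h5]
  have h12 : d₂ = d₁ := by
    have h3 : a * d₂ = a * d₁ := h0.1.trans (hc1 a ha).symm
    exact mul_left_cancel h3
  subst h12
  rcases hζ.uniq d₂ h1 hc1 with rfl | rfl
  · exact Or.inl (by rw [hdd, bs_one])
  · exact Or.inr hdd

/-- **The wreath product is centrally indecomposable.** -/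
theorem ci_wr {ζ : Perm Y} [Nonempty Y] (hζ : CentTwo K ζ) (C D : Subgroup (wr K)) (hC : C.Normal)
    (hD : D.Normal) (hcomm : ∀ a ∈ C, ∀ b ∈ D, a * b = b * a) (hsup : C ⊔ D = ⊤) :
    C = ⊤ ∨ D = ⊤ := by
  -- elements of the base or outside
  have hdich : ∀ x : wr K, (∃ g ∈ K, ∃ h ∈ K, x.1 = bs g h) ∨ (∃ g ∈ K, ∃ h ∈ K, x.1 = bs g h * sw) := by
    rintro ⟨x, g, hg, h, hh, rfl | rfl⟩
    · exact Or.inl ⟨g, hg, h, hh, rfl⟩
    · exact Or.inr ⟨g, hg, h, hh, rfl⟩
  have hct := centTwo_wr hζ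
  -- the derived subgroup lies in a factor whose partner is central
  have hmain : ∀ C D : Subgroup (wr K), C.Normal → D.Normal → (∀ a ∈ C, ∀ b ∈ D, a * b = b * a) →
      C ⊔ D = ⊤ → (∀ d ∈ D, d.1 = 1 ∨ d.1 = bs ζ ζ) → C = ⊤ := by
    intro C D hC hD hcomm hsup hcen
    have hcen' : ∀ d ∈ D, ∀ x : wr K, x * d = d * x := by
      intro d hd x
      apply Subtype.ext
      rcases hcen d hd with h | h
      · change x.1 * d.1 = d.1 * x.1
        rw [h, mul_one, one_mul]
      · change x.1 * d.1 = d.1 * x.1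
        rw [h]
        exact hct.comm _ x.2
    have hder : ∀ a b : wr K, ⁅a, b⁆ ∈ C := by
      intro a b
      obtain ⟨s, hs, t, ht, rfl⟩ := exists_mul_of_dec hcomm hsup a
      obtain ⟨s', hs', t', ht', rfl⟩ := exists_mul_of_dec hcomm hsup b
      have e1 : ⁅s * t, s' * t'⁆ = ⁅s, s'⁆ := by
        have h1 := hcen' t ht
        have h2 := hcen' t' ht'
        simp only [commutatorElement_def]
        calc s * t * (s' * t') * (s * t)⁻¹ * (s' * t')⁻¹
            = s * t * (s' * t') * t⁻¹ * s⁻¹ * (s' * t')⁻¹ := by group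
          _ = s * (s' * t') * (t * t⁻¹) * s⁻¹ * (s' * t')⁻¹ := by
              rw [mul_assoc s t, ← h1 (s' * t')]
              group
          _ = s * s' * (s⁻¹ * t') * t'⁻¹ * s'⁻¹ := by
              have : t' * s⁻¹ = s⁻¹ * t' := (h2 s⁻¹).symm
              calc s * (s' * t') * (t * t⁻¹) * s⁻¹ * (s' * t')⁻¹
                  = s * s' * (t' * s⁻¹) * t'⁻¹ * s'⁻¹ := by group
                _ = _ := by rw [this]
          _ = s * s' * s⁻¹ * s'⁻¹ := by group
      rw [e1, commutatorElement_def]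
      exact C.mul_mem (C.mul_mem (C.mul_mem hs hs') (C.inv_mem hs)) (C.inv_mem hs')
    have hzC : (⟨bs ζ ζ, hct.mem⟩ : wr K) ∈ C := by
      have h1 := hder ⟨bs ζ 1, bs_mem hζ.mem K.one_mem⟩ ⟨sw, sw_mem⟩
      have h2 : (⁅(⟨bs ζ 1, bs_mem hζ.mem K.one_mem⟩ : wr K), (⟨sw, sw_mem⟩ : wr K)⁆) =
          ⟨bs ζ ζ, hct.mem⟩ := by
        apply Subtype.ext
        exact comm_bs_sw hζ
      rwa [h2] at h1
    have hDC : D ≤ C := by
      intro d hd
      rcases hcen d hd with h | h
      · have : d = 1 := Subtype.ext h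
        rw [this]
        exact C.one_mem
      · have : d = ⟨bs ζ ζ, hct.mem⟩ := Subtype.ext h
        rw [this]
        exact hzC
    rwa [sup_eq_left.2 hDC] at hsup
  -- the two-sided statement: outside elements in both factors cannot occur
  have hout : ∀ C D : Subgroup (wr K), C.Normal → D.Normal → (∀ a ∈ C, ∀ b ∈ D, a * b = b * a) →
      (∃ x ∈ C, ∃ g ∈ K, ∃ h ∈ K, x.1 = bs g h * sw) →
      ∀ d ∈ D, (∃ g ∈ K, ∃ h ∈ K, d.1 = bs g h) → (d.1 = 1 ∨ d.1 = bs ζ ζ) := by
    rintro C D hC hD hcomm ⟨x, hx, a, ha, b, hb, hxab⟩ d hd ⟨g, hg, h, hh, hdgh⟩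
    refine normal_base_central hζ D hD ha hb ?_ hd hg hh hdgh
    intro e he
    have h' : x.1 * e.1 = e.1 * x.1 := congrArg Subtype.val (hcomm x hx e he)
    rwa [hxab] at h'
  have hcommD : ∀ a ∈ D, ∀ b ∈ C, a * b = b * a := fun a ha b hb => (hcomm b hb a ha).symm
  have hsupD : D ⊔ C = ⊤ := by rwa [sup_comm]
  by_cases hCout : ∃ x ∈ C, ∃ g ∈ K, ∃ h ∈ K, x.1 = bs g h * sw
  · by_cases hDout : ∃ x ∈ D, ∃ g ∈ K, ∃ h ∈ K, x.1 = bs g h * sw
    · -- both: the outside element of `C` is central, absurd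
      exfalso
      obtain ⟨x, hx, a, ha, b, hb, hxab⟩ := hCout
      have hCb := hout D C hD hC hcommD hDout
      have hxcen : ∀ g ∈ wr K, g * x.1 = x.1 * g := by
        intro g hg
        obtain ⟨s, hs, t, ht, hst⟩ := exists_mul_of_dec hcomm hsup (⟨g, hg⟩ : wr K)
        have hgst : g = s.1 * t.1 := (congrArg Subtype.val hst).symm
        have h1 : x.1 * t.1 = t.1 * x.1 := congrArg Subtype.val (hcomm x hx t ht)
        have h2 : s.1 * x.1 = x.1 * s.1 := by
          rcases hdich s with ⟨u, hu, v, hv, hsuv⟩ | ⟨u, hu, v, hv, hsuv⟩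
          · rcases hCb s hs ⟨u, hu, v, hv, hsuv⟩ with h | h
            · rw [h, one_mul, mul_one]
            · rw [h]
              exact (hct.comm _ x.2).symm
          · -- `x⁻¹ s` is in the base
            have hy : x⁻¹ * s ∈ C := C.mul_mem (C.inv_mem hx) hs
            have hyb : (x⁻¹ * s).1 = bs (b⁻¹ * v) (a⁻¹ * u) := by
              change x.1⁻¹ * s.1 = _
              rw [hxab, hsuv, mul_inv_rev, sw_inv, bs_inv,
                show sw * (bs a⁻¹ b⁻¹) * (bs u v * sw) = sw * (bs a⁻¹ b⁻¹ * bs u v) * sw by group,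
                bs_mul, sw_mul_bs, mul_assoc, sw_mul_sw, mul_one]
            have hcen2 := hCb _ hy ⟨_, K.mul_mem (K.inv_mem hb) hv, _, K.mul_mem (K.inv_mem ha) hu, hyb⟩
            have hcom : (x⁻¹ * s).1 * x.1 = x.1 * (x⁻¹ * s).1 := by
              rcases hcen2 with h | h
              · rw [h, one_mul, mul_one]
              · rw [h]
                exact (hct.comm _ x.2).symm
            have e : s.1 = x.1 * (x⁻¹ * s).1 := by
              change s.1 = x.1 * (x.1⁻¹ * s.1)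
              group
            rw [e, mul_assoc, hcom]
        rw [hgst]
        calc s.1 * t.1 * x.1 = s.1 * (t.1 * x.1) := by group
          _ = s.1 * (x.1 * t.1) := by rw [h1]
          _ = (s.1 * x.1) * t.1 := by group
          _ = (x.1 * s.1) * t.1 := by rw [h2]
          _ = x.1 * (s.1 * t.1) := by group
      rcases hct.uniq x.1 x.2 hxcen with h | h
      · rw [hxab, ← bs_one] at h
        exact bs_ne_mul_sw _ _ _ _ h.symm
      · rw [hxab] at h
        exact bs_ne_mul_sw _ _ _ _ h.symm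
    · left
      apply hmain C D hC hD hcomm hsup
      intro d hd
      apply hout C D hC hD hcomm hCout d hd
      rcases hdich d with h | h
      · exact h
      · obtain ⟨g, hg, h', hh', he⟩ := h
        exact absurd ⟨d, hd, g, hg, h', hh', he⟩ hDout
  · by_cases hDout : ∃ x ∈ D, ∃ g ∈ K, ∃ h ∈ K, x.1 = bs g h * sw
    · right
      apply hmain D C hD hC hcommD hsupD
      intro d hd
      apply hout D C hD hC hcommD hDout d hd
      rcases hdich d with h | h
      · exact h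
      · obtain ⟨g, hg, h', hh', he⟩ := h
        exact absurd ⟨d, hd, g, hg, h', hh', he⟩ hCout
    · -- both in the base: impossible
      exfalso
      let B : Subgroup (wr K) :=
        { carrier := {x | ∃ g ∈ K, ∃ h ∈ K, x.1 = bs g h}
          mul_mem' := by
            rintro x y ⟨g, hg, h, hh, hx⟩ ⟨g', hg', h', hh', hy⟩
            refine ⟨_, K.mul_mem hg hg', _, K.mul_mem hh hh', ?_⟩
            change x.1 * y.1 = _
            rw [hx, hy, bs_mul]
          one_mem' := ⟨1, K.one_mem, 1, K.one_mem, bs_one.symm⟩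
          inv_mem' := by
            rintro x ⟨g, hg, h, hh, hx⟩
            refine ⟨_, K.inv_mem hg, _, K.inv_mem hh, ?_⟩
            change x.1⁻¹ = _
            rw [hx, bs_inv] }
      have hCB : C ≤ B := by
        intro c hc
        rcases hdich c with h | ⟨g, hg, h', hh', he⟩
        · exact h
        · exact absurd ⟨c, hc, g, hg, h', hh', he⟩ hCout
      have hDB : D ≤ B := by
        intro c hc
        rcases hdich c with h | ⟨g, hg, h', hh', he⟩
        · exact h
        · exact absurd ⟨c, hc, g, hg, h', hh', he⟩ hDout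
      have htop : (⟨sw, sw_mem⟩ : wr K) ∈ C ⊔ D := by rw [hsup]; trivial
      obtain ⟨g, hg, h, hh, he⟩ := (sup_le hCB hDB) htop
      have he' : (sw : Perm (Y ⊕ Y)) = bs g h := he
      have := bs_ne_mul_sw g h 1 1
      rw [bs_one, one_mul] at this
      exact this he'.symm

end wreath

section signs

variable {Y : Type} [Fintype Y] [DecidableEq Y]

theorem sign_bs (g h : Perm Y) : Perm.sign (bs g h) = Perm.sign g * Perm.sign h :=
  Perm.sign_sumCongr _ _

theorem sign_sw : Perm.sign (sw : Perm (Y ⊕ Y)) = (-1) ^ Fintype.card Y := by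
  have h1 := Perm.sign_prodCongrLeft (fun _ : Y => (Equiv.swap false true : Perm Bool))
  have h2 : Perm.sign (Equiv.swap false true : Perm Bool) = -1 := Perm.sign_swap (by decide)
  simp only [h2, Finset.prod_const, Finset.card_univ] at h1
  rw [← h1, ← Perm.sign_permCongr (Equiv.boolProdEquivSum Y)]
  congr 1
  ext (y | y) <;> rfl

end signs

end Cfsg.Agent.Lib.AltSylDec
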