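import Mathlib
import Cfsg.Agent.Lib.AltSylDecB
import Cfsg.Agent.Lib.NilpPermAlt

/-!
# The tower of wreath products, and models of Sylow `2`-subgroups of alternating groups
-/

set_option autoImplicit false
set_option linter.unusedSectionVars false
set_option linter.unusedVariables false

namespace Cfsg.Agent.Lib.AltSylDec

open Equiv Cfsg.Agent.Lib.NilpPerm
open scoped commutatorElement

section evn

variable {Y : Type} [Fintype Y] [DecidableEq Y]

/-- The even part of a permutation group. -/
abbrev Evn (K : Subgroup (Perm Y)) : Subgroup K := (Perm.sign.comp K.subtype).ker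

theorem mem_Evn {K : Subgroup (Perm Y)} {x : K} : x ∈ Evn K ↔ Perm.sign x.1 = 1 := MonoidHom.mem_ker

variable {K : Subgroup (Perm Y)}

theorem sq_sign (g : Perm Y) : Perm.sign g * Perm.sign g = 1 := Int.units_mul_self _

theorem ev_wr [Nonempty Y] {ζ : Perm Y} (hζ : CentTwo K ζ) (hs : Perm.sign ζ = 1)
    (hsw : Perm.sign (sw : Perm (Y ⊕ Y)) = 1) :
    ∃ z : Evn (wr K), ∀ c : Evn (wr K), (∀ x, x * c = c * x) → c = 1 ∨ c = z := by
  have hzE : Perm.sign (bs ζ ζ) = 1 := by rw [sign_bs, hs, one_mul]
  refine ⟨⟨⟨bs ζ ζ, bs_mem hζ.mem hζ.mem⟩, mem_Evn.2 hzE⟩, ?_⟩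
  rintro ⟨⟨c, hc⟩, hcE⟩ hcen
  have hcom : ∀ y (hy : y ∈ wr K), Perm.sign y = 1 → y * c = c * y := by
    intro y hy hsy
    have := hcen ⟨⟨y, hy⟩, mem_Evn.2 hsy⟩
    exact congrArg (fun t : Evn (wr K) => t.1.1) this
  obtain ⟨a, ha, b, hb, rfl | rfl⟩ := hc
  · -- in the base
    have h1 : ∀ g ∈ K, g * a = a * g := by
      intro g hg
      have := hcom (bs g g) (bs_mem hg hg) (by rw [sign_bs, sq_sign])
      rw [bs_mul, bs_mul] at this
      exact (bs_inj this).1
    have h3 : a = b := by
      have := hcom sw sw_mem hsw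
      rw [sw_mul_bs] at this
      exact ((bs_inj (mul_right_cancel this)).1).symm
    subst h3
    rcases hζ.uniq a ha h1 with rfl | rfl
    · left
      apply Subtype.ext
      apply Subtype.ext
      exact bs_one
    · right
      rfl
  · -- outside the base
    exfalso
    have := hcom (bs 1 ζ) (bs_mem K.one_mem hζ.mem) (by rw [sign_bs, hs, map_one, one_mul])
    have e1 : bs 1 ζ * (bs a b * sw) = bs a (ζ * b) * sw := by
      rw [← mul_assoc, bs_mul, one_mul]
    have e2 : bs a b * sw * bs 1 ζ = bs (a * ζ) b * sw := by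
      rw [mul_assoc, sw_mul_bs, ← mul_assoc, bs_mul, mul_one]
    rw [e1, e2] at this
    have h1 := (bs_inj (mul_right_cancel this)).1
    apply hζ.ne
    have : a * 1 = a * ζ := by rw [mul_one]; exact h1
    exact (mul_left_cancel this).symm

end evn

/-- One level of the tower of iterated wreath products. -/
structure Tw (a : ℕ) where
  Y : Type
  fin : Fintype Y
  dec : DecidableEq Y
  K : Subgroup (Perm Y)
  ne : Nonempty Y
  cardY : Fintype.card Y = 2 ^ a
  cardK : Nat.card K = 2 ^ (2 ^ a - 1)
  odd : 1 ≤ a → ∃ o ∈ K, Perm.sign o = -1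
  ct : 1 ≤ a → ∃ ζ, CentTwo K ζ ∧ (2 ≤ a → Perm.sign ζ = 1)
  ci : 2 ≤ a → ∀ C D : Subgroup K, C.Normal → D.Normal → (∀ a ∈ C, ∀ b ∈ D, a * b = b * a) →
    C ⊔ D = ⊤ → C = ⊤ ∨ D = ⊤
  comm : 2 ≤ a → ∀ z : K, (∀ g, g * z = z * g) → ∃ u s : K, Perm.sign s.1 = 1 ∧ ⁅u, s⁆ = z
  ev : 3 ≤ a → ∃ z : Evn K, ∀ c : Evn K, (∀ x, x * c = c * x) → c = 1 ∨ c = z

attribute [instance] Tw.fin Tw.dec Tw.ne

theorem nonempty_tw (a : ℕ) : Nonempty (Tw a) := by
  induction a with
  | zero =>
    exact ⟨{ Y := Unit, fin := inferInstance, dec := inferInstance, K := ⊥, ne := inferInstance,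
             cardY := by simp, cardK := by simp,
             odd := fun h => absurd h (by norm_num), ct := fun h => absurd h (by norm_num),
             ci := fun h => absurd h (by norm_num), comm := fun h => absurd h (by norm_num),
             ev := fun h => absurd h (by norm_num) }⟩
  | succ a ih =>
    obtain ⟨t⟩ := ih
    have hcc := t.cardK
    haveI : Finite t.K := Nat.finite_of_card_ne_zero (by rw [hcc]; positivity)
    have hcs : Perm.sign (sw : Perm (t.Y ⊕ t.Y)) = (-1) ^ 2 ^ a := by
      rw [sign_sw, t.cardY]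
    -- the central element
    have hct : ∃ ζ, CentTwo (wr t.K) ζ ∧ (2 ≤ a + 1 → Perm.sign ζ = 1) := by
      rcases Nat.eq_zero_or_pos a with rfl | ha
      · have hbot : t.K = ⊥ := Subgroup.eq_bot_of_card_eq _ (by rw [hcc]; simp)
        rw [hbot]
        exact ⟨sw, centTwo_bot, fun h => absurd h (by norm_num)⟩
      · obtain ⟨ζ, hζ, -⟩ := t.ct ha
        exact ⟨bs ζ ζ, centTwo_wr hζ, fun _ => by rw [sign_bs, sq_sign]⟩
    refine ⟨{ Y := t.Y ⊕ t.Y, fin := inferInstance, dec := inferInstance, K := wr t.K,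
              ne := inferInstance, cardY := ?_, cardK := ?_, odd := ?_, ct := fun _ => hct,
              ci := ?_, comm := ?_, ev := ?_ }⟩
    · rw [Fintype.card_sum, t.cardY, pow_succ]
      ring
    · rw [card_wr, hcc, ← pow_mul, ← pow_succ']
      congr 1
      have : 1 ≤ 2 ^ a := Nat.one_le_two_pow
      rw [pow_succ]
      omega
    · intro _
      rcases Nat.eq_zero_or_pos a with rfl | ha
      · exact ⟨sw, sw_mem, by rw [hcs]; norm_num⟩
      · obtain ⟨o, ho, hso⟩ := t.odd ha
        exact ⟨bs o 1, bs_mem ho t.K.one_mem, by rw [sign_bs, hso, map_one, mul_one]⟩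
    · intro h2
      obtain ⟨ζ, hζ, -⟩ := t.ct (by omega)
      exact ci_wr hζ
    · intro h2 z hz
      obtain ⟨ζ, hζ, -⟩ := t.ct (by omega)
      have hswe : Perm.sign (sw : Perm (t.Y ⊕ t.Y)) = 1 := by
        rw [hcs]
        exact Even.neg_one_pow (Nat.even_pow.2 ⟨even_two, by omega⟩)
      rcases center_wr hζ z.2 (fun g hg => congrArg Subtype.val (hz ⟨g, hg⟩)) with h | h
      · refine ⟨1, 1, map_one _, ?_⟩
        apply Subtype.ext
        rw [h]
        simp [commutatorElement_def]
      · refine ⟨⟨bs ζ 1, bs_mem hζ.mem t.K.one_mem⟩, ⟨sw, sw_mem⟩, hswe, ?_⟩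
        apply Subtype.ext
        rw [h]
        exact comm_bs_sw hζ
    · intro h3
      obtain ⟨ζ, hζ, hs⟩ := t.ct (by omega)
      have hswe : Perm.sign (sw : Perm (t.Y ⊕ t.Y)) = 1 := by
        rw [hcs]
        exact Even.neg_one_pow (Nat.even_pow.2 ⟨even_two, by omega⟩)
      exact ev_wr hζ (hs (by omega)) hswe

section tw

variable {a : ℕ} (t : Tw a)

theorem Tw.finiteK : Finite t.K :=
  Nat.finite_of_card_ne_zero (by rw [t.cardK]; positivity)

theorem Tw.isP : IsPGroup 2 t.K := IsPGroup.of_card t.cardK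

/-- The sign of a level of the tower. -/
def Tw.sg : t.K →* ℤˣ := Perm.sign.comp t.K.subtype

theorem Tw.sg_apply (x : t.K) : t.sg x = Perm.sign x.1 := rfl

theorem Tw.central_even (h2 : 2 ≤ a) (z : t.K) (hz : ∀ g, g * z = z * g) : t.sg z = 1 := by
  obtain ⟨ζ, hζ, hs⟩ := t.ct (by omega)
  rcases hζ.uniq z.1 z.2 (fun g hg => congrArg Subtype.val (hz ⟨g, hg⟩)) with h | h
  · rw [Tw.sg_apply, h, map_one]
  · rw [Tw.sg_apply, h, hs h2]

end tw

section signSigma

variable {I : Type} [Fintype I] [DecidableEq I] {Y : I → Type} [∀ i, Fintype (Y i)]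
  [∀ i, DecidableEq (Y i)]

theorem sign_sigma_single (a : I) (h : Perm (Y a)) :
    Perm.sign (Perm.sigmaCongrRight (Pi.mulSingle a h : Π i, Perm (Y i))) = Perm.sign h := by
  have e : Perm.sigmaCongrRight (Pi.mulSingle a h : Π i, Perm (Y i)) =
      h.extendDomain (Equiv.sigmaSubtype a).symm := by
    ext1 ⟨k, y⟩
    by_cases hk : k = a
    · subst hk
      have h1 := Perm.extendDomain_apply_image h (Equiv.sigmaSubtype k).symm y
      change (⟨k, (Pi.mulSingle k h : Π i, Perm (Y i)) k y⟩ : Σ i, Y i) = _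
      rw [Pi.mulSingle_eq_same]
      exact h1.symm
    · rw [Perm.extendDomain_apply_not_subtype _ _ (by simpa using hk)]
      simp [Perm.sigmaCongrRight, Pi.mulSingle_eq_of_ne hk]
  rw [e, Perm.sign_extendDomain]

theorem sign_sigma (f : Π i, Perm (Y i)) :
    Perm.sign (Perm.sigmaCongrRight f) = ∏ i, Perm.sign (f i) := by
  have hA : ∀ A : Finset I, Perm.sign (Perm.sigmaCongrRight
      (fun i => if i ∈ A then f i else 1 : Π i, Perm (Y i))) = ∏ i ∈ A, Perm.sign (f i) := by
    intro A
    induction A using Finset.induction_on with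
    | empty =>
      have : (fun i => if i ∈ (∅ : Finset I) then f i else 1 : Π i, Perm (Y i)) = 1 := by
        funext i
        simp
      rw [this, Perm.sigmaCongrRight_one]
      simp
    | insert a A ha ih =>
      have : (fun i => if i ∈ insert a A then f i else 1 : Π i, Perm (Y i)) =
          (fun i => if i ∈ A then f i else 1 : Π i, Perm (Y i)) * Pi.mulSingle a (f a) := by
        funext i
        by_cases hia : i = a
        · subst hia
          simp [ha]
        · simp [Finset.mem_insert, hia, Pi.mulSingle_eq_of_ne hia]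
      rw [this, ← Perm.sigmaCongrRight_mul, map_mul, ih, sign_sigma_single,
        Finset.prod_insert ha, mul_comm]
  have := hA Finset.univ
  simpa using this

end signSigma

section model

/-- The model criterion: an injective even representation of the right order. -/
theorem sylow_model {n : ℕ} (P : Sylow 2 (alternatingGroup (Fin n))) {X : Type} [Fintype X]
    [DecidableEq X] (hX : Fintype.card X = n) {G : Type} [Group G] [Finite G] (ψ : G →* Perm X)
    (hψ : Function.Injective ψ) (hs : ∀ g, Perm.sign (ψ g) = 1)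
    (hc : Nat.card G = 2 ^ (s2 n - 1)) :
    Nonempty ((P : Subgroup (alternatingGroup (Fin n))) ≃* G) := by
  classical
  let e : X ≃ Fin n := Fintype.equivFinOfCardEq hX
  let f₀ : G →* Perm (Fin n) := (e.permCongrHom.toMonoidHom).comp ψ
  have hf₀ : ∀ g, f₀ g ∈ alternatingGroup (Fin n) := by
    intro g
    change Perm.sign (e.permCongr (ψ g)) = 1
    rw [Perm.sign_permCongr, hs]
  let f : G →* alternatingGroup (Fin n) := f₀.codRestrict _ hf₀
  have hf : Function.Injective f := by
    intro a b hab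
    have h1 : f₀ a = f₀ b := congrArg Subtype.val hab
    exact hψ (e.permCongrHom.injective h1)
  let E := MonoidHom.ofInjective hf
  have hcard : Nat.card f.range = Nat.card G := Nat.card_congr E.toEquiv.symm
  have hfact : Nat.card f.range = 2 ^ (Nat.card (alternatingGroup (Fin n))).factorization 2 := by
    rw [hcard, hc, ← card_sylow_alt P]
    exact Sylow.card_eq_multiplicity P
  let S : Sylow 2 (alternatingGroup (Fin n)) := Sylow.ofCard f.range hfact
  have hS : (S : Subgroup _) = f.range := Sylow.coe_ofCard _ hfact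
  exact ⟨(Sylow.equiv P S).trans ((MulEquiv.subgroupCongr hS).trans E.symm)⟩

/-- A sign-compensating representation on a small set. -/
def rho (ε : ℕ) (h : 2 ≤ ε) : ℤˣ →* Perm (Fin ε) where
  toFun u := if u = 1 then 1 else Equiv.swap ⟨0, by omega⟩ ⟨1, by omega⟩
  map_one' := by simp
  map_mul' u v := by
    rcases Int.units_eq_one_or u with rfl | rfl <;> rcases Int.units_eq_one_or v with rfl | rfl <;>
      simp

theorem sign_rho (ε : ℕ) (h : 2 ≤ ε) (u : ℤˣ) : Perm.sign (rho ε h u) = u := by
  rcases Int.units_eq_one_or u with rfl | rfl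
  · simp [rho]
  · have h1 : ((-1 : ℤˣ) = 1) = False := by simp
    simp only [rho, MonoidHom.coe_mk, OneHom.coe_mk, h1, if_false]
    rw [Perm.sign_swap]
    intro h0
    have := congrArg Fin.val h0
    simp at this

/-- The representation on a disjoint union. -/
def sumHom {G X E : Type} [Group G] (φ : G →* Perm X) (τ : G →* Perm E) : G →* Perm (X ⊕ E) :=
  (Perm.sumCongrHom X E).comp (φ.prod τ)

theorem sumHom_apply {G X E : Type} [Group G] (φ : G →* Perm X) (τ : G →* Perm E) (g : G) :
    sumHom φ τ g = Perm.sumCongr (φ g) (τ g) := rfl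

theorem sumHom_injective {G X E : Type} [Group G] (φ : G →* Perm X) (τ : G →* Perm E)
    (h : Function.Injective φ) : Function.Injective (sumHom φ τ) := by
  intro a b hab
  apply h
  ext y
  have := congrArg (fun σ : Perm (X ⊕ E) => σ (Sum.inl y)) hab
  simpa [sumHom_apply] using this

/-- A model with the points `X ⊕ Fin ε`, `φ` even. -/
theorem model_even {n ε : ℕ} (P : Sylow 2 (alternatingGroup (Fin n))) {X : Type} [Fintype X]
    [DecidableEq X] (hX : Fintype.card X + ε = n) {G : Type} [Group G] [Finite G] (φ : G →* Perm X)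
    (hφ : Function.Injective φ) (hs : ∀ g, Perm.sign (φ g) = 1)
    (hc : Nat.card G = 2 ^ (s2 n - 1)) :
    Nonempty ((P : Subgroup (alternatingGroup (Fin n))) ≃* G) := by
  refine sylow_model P (X := X ⊕ Fin ε) (by rw [Fintype.card_sum, Fintype.card_fin, hX])
    (sumHom φ 1) (sumHom_injective _ _ hφ) ?_ hc
  intro g
  rw [sumHom_apply, Perm.sign_sumCongr, hs]
  simp

/-- A model with the points `X ⊕ Fin ε`, `ε ≥ 2`, `φ` arbitrary. -/
theorem model_comp {n ε : ℕ} (hε : 2 ≤ ε) (P : Sylow 2 (alternatingGroup (Fin n))) {X : Type}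
    [Fintype X] [DecidableEq X] (hX : Fintype.card X + ε = n) {G : Type} [Group G] [Finite G]
    (φ : G →* Perm X) (hφ : Function.Injective φ) (hc : Nat.card G = 2 ^ (s2 n - 1)) :
    Nonempty ((P : Subgroup (alternatingGroup (Fin n))) ≃* G) := by
  refine sylow_model P (X := X ⊕ Fin ε) (by rw [Fintype.card_sum, Fintype.card_fin, hX])
    (sumHom φ ((rho ε hε).comp (Perm.sign.comp φ))) (sumHom_injective _ _ hφ) ?_ hc
  intro g
  rw [sumHom_apply, Perm.sign_sumCongr]
  simp only [MonoidHom.comp_apply]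
  rw [sign_rho]
  exact Int.units_mul_self _

end model

section arith

/-- The binary digit sum. -/
def ds (n : ℕ) : ℕ := (Nat.digits 2 n).sum

theorem ds_rec (n : ℕ) : ds n = n % 2 + ds (n / 2) := by
  rcases Nat.eq_zero_or_pos n with rfl | h
  · simp [ds]
  · unfold ds
    rw [Nat.digits_def' (by norm_num) h, List.sum_cons]

theorem ds_four (x ε : ℕ) (h : ε < 4) : ds (4 * x + ε) = ds x + (ε % 2 + ε / 2) := by
  rw [ds_rec, ds_rec ((4 * x + ε) / 2)]
  have e1 : (4 * x + ε) % 2 = ε % 2 := by omega
  have e2 : (4 * x + ε) / 2 % 2 = ε / 2 := by omega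
  have e3 : (4 * x + ε) / 2 / 2 = x := by omega
  rw [e1, e2, e3]
  ring

theorem ds_two_pow (b : ℕ) : ds (2 ^ b) = 1 := by
  induction b with
  | zero => simp [ds]
  | succ b ih =>
    rw [ds_rec, pow_succ]
    have e1 : 2 ^ b * 2 % 2 = 0 := by omega
    have e2 : 2 ^ b * 2 / 2 = 2 ^ b := by omega
    rw [e1, e2, ih]

theorem ds_le (n : ℕ) : ds n ≤ n := Nat.digit_sum_le 2 n

theorem s2_eq_sub (n : ℕ) : s2 n = n - ds n := rfl

/-- Binary expansions. -/
theorem exists_rep (x : ℕ) : ∃ D : Finset ℕ, ∑ i ∈ D, 2 ^ i = x ∧ D.card = ds x := by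
  induction x using Nat.strong_induction_on with
  | _ x ih =>
    rcases Nat.eq_zero_or_pos x with rfl | hx
    · exact ⟨∅, by simp, by simp [ds]⟩
    · obtain ⟨D, hD, hc⟩ := ih (x / 2) (by omega)
      have hinj : Function.Injective (fun i : ℕ => i + 1) := fun a b h => by simpa using h
      have hsum : ∑ i ∈ D.image (fun i => i + 1), 2 ^ i = 2 * (x / 2) := by
        rw [Finset.sum_image (fun a _ b _ h => hinj h), ← hD, Finset.mul_sum]
        exact Finset.sum_congr rfl (fun i _ => by ring)
      have hcard : (D.image (fun i => i + 1)).card = D.card := Finset.card_image_of_injective _ hinj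
      rcases Nat.mod_two_eq_zero_or_one x with h | h
      · refine ⟨D.image (fun i => i + 1), by rw [hsum]; omega, ?_⟩
        rw [hcard, hc, ds_rec x, h, zero_add]
      · have h0 : 0 ∉ D.image (fun i => i + 1) := by
          simp
        refine ⟨insert 0 (D.image (fun i => i + 1)), ?_, ?_⟩
        · rw [Finset.sum_insert h0, hsum]
          simp
          omega
        · rw [Finset.card_insert_of_notMem h0, hcard, hc, ds_rec x, h]
          ring

theorem rep_cases {x : ℕ} (hx : 1 ≤ x) {D : Finset ℕ} (hD : ∑ i ∈ D, 2 ^ i = x) :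
    (∃ b, x = 2 ^ b) ∨ 2 ≤ D.card := by
  rcases Nat.lt_or_ge D.card 2 with h | h
  · left
    interval_cases hc : D.card
    · rw [Finset.card_eq_zero] at hc
      subst hc
      simp at hD
      omega
    · obtain ⟨b, rfl⟩ := Finset.card_eq_one.1 hc
      exact ⟨b, by simpa using hD.symm⟩
  · exact Or.inr h

end arith

/-- Groups of order four and exponent two. -/
theorem dec_of_card_four {G : Type*} [Group G] [Finite G] (h4 : Nat.card G = 4)
    (hsq : ∀ x : G, x * x = 1) : Dec G := by
  classical
  haveI : Nontrivial G := Finite.one_lt_card_iff_nontrivial.1 (by omega)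
  have hzp : ∀ a : G, ∀ x ∈ Subgroup.zpowers a, x = 1 ∨ x = a := by
    intro a x hx
    obtain ⟨k, rfl⟩ := Subgroup.mem_zpowers_iff.1 hx
    have ha2 : a ^ (2 : ℤ) = 1 := by
      rw [zpow_two]
      exact hsq a
    rcases Int.even_or_odd' k with ⟨m, rfl | rfl⟩
    · left
      rw [zpow_mul, ha2, one_zpow]
    · right
      rw [zpow_add, zpow_mul, ha2, one_zpow, one_mul, zpow_one]
  obtain ⟨a, ha⟩ := exists_ne (1 : G)
  have hScard : Nat.card (Subgroup.zpowers a) = 2 := by
    rw [Nat.card_zpowers]
    apply orderOf_eq_prime _ ha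
    rw [pow_two]
    exact hsq a
  obtain ⟨b, hb⟩ : ∃ b, b ∉ Subgroup.zpowers a := by
    by_contra hall
    push Not at hall
    have : Subgroup.zpowers a = ⊤ := by
      rw [eq_top_iff]
      intro x _
      exact hall x
    rw [this, Subgroup.card_top] at hScard
    omega
  have hb1 : b ≠ 1 := by
    rintro rfl
    exact hb (Subgroup.one_mem _)
  refine ⟨Subgroup.zpowers a, Subgroup.zpowers b, ?_, ?_, ?_, ?_, ?_⟩
  · intro h0
    rw [Subgroup.zpowers_eq_bot] at h0
    exact ha h0
  · intro h0
    rw [Subgroup.zpowers_eq_bot] at h0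
    exact hb1 h0
  · intro x hx y hy
    have hcomm : ∀ u v : G, u * v = v * u := by
      intro u v
      have h := hsq (u * v)
      calc u * v = u * v * (v * u * (v * u)) := by rw [hsq (v * u), mul_one]
        _ = (u * (v * v) * u) * (v * u) := by group
        _ = v * u := by rw [hsq v, mul_one, hsq u, one_mul]
    exact hcomm x y
  · rw [eq_bot_iff]
    rintro x ⟨hx1, hx2⟩
    rw [Subgroup.mem_bot]
    rcases hzp a x hx1 with h | h
    · exact h
    · rcases hzp b x hx2 with h' | h'
      · exact h'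
      · exfalso
        apply hb
        rw [← h', h]
        exact Subgroup.mem_zpowers a
  · set U := Subgroup.zpowers a ⊔ Subgroup.zpowers b with hU
    have hle : Subgroup.zpowers a ≤ U := le_sup_left
    have hd := Subgroup.card_dvd_of_le hle
    have hd2 : Nat.card U ∣ 4 := by
      rw [← h4]
      exact Subgroup.card_subgroup_dvd_card U
    rw [hScard] at hd
    have hbU : b ∈ U := (le_sup_right : Subgroup.zpowers b ≤ U) (Subgroup.mem_zpowers b)
    have h4' : Nat.card U = 4 := by
      have hle4 := Nat.le_of_dvd (by norm_num) hd2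
      interval_cases hu : Nat.card U
      · simp at hd2
      · omega
      · exfalso
        have := Subgroup.eq_of_le_of_card_ge hle (by rw [hScard, hu])
        rw [← this] at hbU
        exact hb hbU
      · omega
      · rfl
    exact Subgroup.eq_top_of_card_eq _ (by rw [h4', h4])

theorem sq_of_A4 : ∀ σ : Perm (Fin 4), Perm.sign σ = 1 → σ ^ 4 = 1 → σ * σ = 1 := by
  decide +kernel

theorem sq_of_A5 : ∀ σ : Perm (Fin 5), Perm.sign σ = 1 → σ ^ 4 = 1 → σ * σ = 1 := by
  decide +kernel

end Cfsg.Agent.Lib.AltSylDec
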