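import Mathlib
import Cfsg.Agent.Lib.BurnsidePQ
import Cfsg.Agent.Lib.SelfCent
import Cfsg.Agent.S3103

/-!
# Anisotropic quadratic maps on elementary abelian `2`-groups of small rank

`q : W → U` is an anisotropic quadratic map, `W`, `U` elementary abelian `2`-groups with `|U| ≤ 4`.
Then `|W| ≤ 16`, and the group of automorphisms of `W` preserving `q` is solvable.
-/

set_option autoImplicit false
set_option linter.style.haveILetI false
set_option linter.unusedSimpArgs false
set_option linter.unusedVariables false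

namespace Cfsg.Agent.Lib.AnisoCore

variable {W U : Type*} [Group W] [Group U]

/-- The polarization of `q`. -/
def pol (q : W → U) (x y : W) : U := q (x * y) * q x * q y

/-- An anisotropic quadratic map. -/
structure QF (q : W → U) : Prop where
  w2 : ∀ w : W, w * w = 1
  u2 : ∀ u : U, u * u = 1
  anis : ∀ w, q w = 1 → w = 1
  bil : ∀ x y z, pol q (x * y) z = pol q x z * pol q y z

section basic

variable {q : W → U} (h : QF q)
include h

theorem wc (a b : W) : a * b = b * a := by
  have h1 : (a * b) * (b * a) = 1 := by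
    rw [mul_assoc, ← mul_assoc b, h.w2, one_mul, h.w2]
  exact mul_right_cancel (b := b * a) (by rw [h1, h.w2])

theorem uc (a b : U) : a * b = b * a := by
  have h1 : (a * b) * (b * a) = 1 := by
    rw [mul_assoc, ← mul_assoc b, h.u2, one_mul, h.u2]
  exact mul_right_cancel (b := b * a) (by rw [h1, h.u2])

theorem ulc (a b c : U) : a * (b * c) = b * (a * c) := by
  rw [← mul_assoc, uc h a b, mul_assoc]

theorem wlc (a b c : W) : a * (b * c) = b * (a * c) := by
  rw [← mul_assoc, wc h a b, mul_assoc]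

theorem ucancel (a b : U) : a * (a * b) = b := by
  rw [← mul_assoc, h.u2, one_mul]

theorem wcancel (a b : W) : a * (a * b) = b := by
  rw [← mul_assoc, h.w2, one_mul]

theorem pol_symm (x y : W) : pol q x y = pol q y x := by
  simp only [pol]
  rw [wc h x y, mul_assoc, mul_assoc, uc h (q x)]

theorem bil_right (x y z : W) : pol q x (y * z) = pol q x y * pol q x z := by
  rw [pol_symm h, h.bil, pol_symm h y, pol_symm h z]

theorem q_one : q 1 = 1 := by
  have h1 : pol q 1 1 = pol q 1 1 * pol q 1 1 := by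
    have := h.bil 1 1 1
    rwa [one_mul] at this
  have h2 : pol q 1 1 = 1 := by
    rw [h.u2] at h1
    exact h1
  simp only [pol, one_mul, h.u2] at h2
  exact h2

theorem q_mul (x y : W) : q (x * y) = q x * (q y * pol q x y) := by
  simp only [pol]
  have h1 : q x * (q y * (q (x * y) * q x * q y)) =
      q (x * y) * (q x * (q x * (q y * q y))) := by
    simp only [mul_assoc, uc h, ulc h]
  rw [h1, ucancel h, h.u2, mul_one]

theorem pol_self (x : W) : pol q x x = 1 := by
  simp only [pol, h.w2, q_one h, one_mul, mul_assoc, h.u2]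

theorem pol_equiv (g : MulAut W) (hg : ∀ w, q (g w) = q w) (x y : W) :
    pol q (g x) (g y) = pol q x y := by
  simp only [pol, ← map_mul, hg]

theorem q_ne_one {x : W} (hx : x ≠ 1) : q x ≠ 1 := fun h1 => hx (h.anis x h1)

end basic

section seven

variable {q : W → U} (h : QF q)
include h

theorem no_seven_aux (g : MulAut W) (hg : ∀ w, q (g w) = q w) {y : W} (hy : y ≠ 1)
    (h3 : g (g (g y)) = y * g y) : False := by
  have hcan := wcancel h
  have hc := wc h
  have hlc := wlc h
  -- the elements of the orbit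
  have h4 : g (g (g (g y))) = g y * g (g y) := by rw [h3, map_mul]
  have h5' : g (g (g (g (g y)))) = g (g y) * (y * g y) := by rw [h4, map_mul, h3]
  have h6 : g (g (g (g (g (g y))))) = y * g (g y) := by
    rw [h5', map_mul, map_mul, h3]
    simp only [mul_assoc, hc, hlc, hcan, h.w2, mul_one]
  obtain ⟨c, hc'⟩ : ∃ c, c = q y := ⟨_, rfl⟩
  have hq1 : q (g y) = c := by rw [hg, hc']
  have hq2 : q (g (g y)) = c := by rw [hg, hq1]
  have hq3 : q (g (g (g y))) = c := by rw [hg, hq2]
  have hq4 : q (g (g (g (g y)))) = c := by rw [hg, hq3]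
  have hq5 : q (g (g (g (g (g y))))) = c := by rw [hg, hq4]
  have hq6 : q (g (g (g (g (g (g y)))))) = c := by rw [hg, hq5]
  have hb1 : pol q y (g y) = c := by
    have := q_mul h y (g y)
    rw [← h3, hq3, hq1, ← hc', ucancel h] at this
    exact this.symm
  have hb2 : pol q y (g (g y)) = c := by
    have := q_mul h y (g (g y))
    rw [← h6, hq6, hq2, ← hc', ucancel h] at this
    exact this.symm
  have h5 : pol q (g (g y)) (g (g (g y))) = c := by
    rw [pol_equiv h g hg, pol_equiv h g hg, hb1]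
  have h7 : pol q (g (g y)) (y * g y) = 1 := by
    rw [bil_right h, pol_symm h (g (g y)) y, hb2, pol_symm h (g (g y)) (g y),
      pol_equiv h g hg, hb1, h.u2]
  rw [h3, h7] at h5
  exact hy (h.anis y (by rw [← hc', ← h5]))

theorem no_seven (g : MulAut W) (hg : ∀ w, q (g w) = q w) (h7 : g ^ 7 = 1) (hne : g ≠ 1) :
    False := by
  have hcan := wcancel h
  have hc := wc h
  have hlc := wlc h
  obtain ⟨x, hx⟩ : ∃ x, g x ≠ x := by
    by_contra hall
    push Not at hall
    exact hne (MulEquiv.ext hall)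
  have hg7 : ∀ w, g (g (g (g (g (g (g w)))))) = w := by
    intro w
    have := DFunLike.congr_fun h7 w
    simpa [pow_succ] using this
  -- the relation
  obtain ⟨x₀, hx₀⟩ : ∃ x₀, x₀ = x * g x := ⟨_, rfl⟩
  have hx₀1 : x₀ ≠ 1 := by
    rw [hx₀]
    intro h1
    apply hx
    exact mul_left_cancel (a := x) (by rw [h1, h.w2])
  have hsum : x₀ * (g x₀ * (g (g x₀) * (g (g (g x₀)) * (g (g (g (g x₀))) *
      (g (g (g (g (g x₀)))) * g (g (g (g (g (g x₀)))))))))) = 1 := by
    rw [hx₀]
    simp only [map_mul, hg7]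
    simp only [mul_assoc, hc, hlc, hcan, h.w2, mul_one]
  by_cases hy : g (g (g x₀)) * (g (g x₀) * x₀) = 1
  · -- use the inverse
    have h1 : g⁻¹ (g⁻¹ (g⁻¹ (g (g (g x₀))))) = g (g (g x₀)) * g⁻¹ (g (g (g x₀))) := by
      have e1 : ∀ w, g⁻¹ (g w) = w := fun w => by simp
      simp only [e1]
      have h2 : x₀ = g (g (g x₀)) * g (g x₀) := by
        calc x₀ = g (g (g x₀)) * (g (g (g x₀)) * (g (g x₀) * (g (g x₀) * x₀))) := by
              rw [hcan, hcan]
          _ = g (g (g x₀)) * (g (g x₀) * (g (g (g x₀)) * (g (g x₀) * x₀))) := by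
              rw [hlc (g (g (g x₀))) (g (g x₀))]
          _ = g (g (g x₀)) * g (g x₀) := by rw [hy, mul_one]
      exact h2
    refine no_seven_aux (y := g (g (g x₀))) h g⁻¹ ?_ ?_ h1
    · intro w
      have := hg (g⁻¹ w)
      simpa using this.symm
    · intro h2
      apply hx₀1
      apply g.injective
      rw [map_one]
      apply g.injective
      rw [map_one]
      apply g.injective
      rw [map_one]
      exact h2
  · refine no_seven_aux (y := g (g (g x₀)) * (g (g x₀) * x₀)) h g hg hy ?_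
    simp only [map_mul]
    have key : ∀ e0 e1 e2 e3 e4 e5 e6 : W, e0 * (e1 * (e2 * (e3 * (e4 * (e5 * e6))))) = 1 →
        e6 * (e5 * e3) = (e3 * (e2 * e0)) * (e4 * (e3 * e1)) := by
      intro e0 e1 e2 e3 e4 e5 e6 hs
      have h1 : (e6 * (e5 * e3)) * ((e3 * (e2 * e0)) * (e4 * (e3 * e1))) =
          e0 * (e1 * (e2 * (e3 * (e4 * (e5 * e6))))) := by
        simp only [mul_assoc, hc, hlc, hcan, h.w2, mul_one]
      rw [hs] at h1
      exact mul_right_cancel (b := (e3 * (e2 * e0)) * (e4 * (e3 * e1))) (by rw [h1, h.w2])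
    exact key _ _ _ _ _ _ _ hsum

end seven

section five

variable {q : W → U} (h : QF q)
include h

theorem card_pow_two [Finite W] : ∃ n : ℕ, Nat.card W = 2 ^ n := by
  have : Fact (Nat.Prime 2) := ⟨Nat.prime_two⟩
  have hp : IsPGroup 2 W := fun w => ⟨1, by rw [pow_one, pow_two, h.w2]⟩
  exact IsPGroup.iff_card.mp hp

/-- An automorphism of order five of an elementary abelian group of order at most `16` has no
nontrivial fixed point. -/
theorem fpf5 [Finite W] (hcard : Nat.card W ≤ 16) (g : MulAut W) (h5 : g ^ 5 = 1) (hne : g ≠ 1)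
    {x : W} (hx : g x = x) : x = 1 := by
  classical
  by_contra hx1
  have : Fact (Nat.Prime 5) := ⟨by norm_num⟩
  have ho : orderOf g = 5 := orderOf_eq_prime h5 hne
  let Y : SubMulAction (Subgroup.zpowers g) W :=
    { carrier := {v | g v ≠ v}
      smul_mem' := by
        rintro ⟨s, hs⟩ v hv
        obtain ⟨k, rfl⟩ := Subgroup.mem_zpowers_iff.mp hs
        intro hc
        apply hv
        change g ((g ^ k) v) = (g ^ k) v at hc
        have h1 : (g ^ k) (g v) = g ((g ^ k) v) := by
          rw [← MulAut.mul_apply, ← MulAut.mul_apply, (show Commute (g ^ k) g from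
            (Commute.refl g).zpow_left k).eq]
        rw [← h1] at hc
        exact (g ^ k).injective hc }
  have hfree : ∀ y : Y, ∀ s : Subgroup.zpowers g, s • y = y → s = 1 := by
    rintro ⟨v, hv⟩ ⟨s, hs⟩ hsv
    have hsv' : s v = v := congrArg Subtype.val hsv
    obtain ⟨k, hk⟩ := (mem_powers_iff_mem_zpowers).mpr hs
    have hk5 : s = g ^ (k % 5) := by
      have hk' : g ^ k = s := hk
      rw [← hk']
      exact pow_eq_pow_mod k h5
    have hlt : k % 5 < 5 := Nat.mod_lt _ (by norm_num)
    apply Subtype.ext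
    change s = 1
    by_contra hne'
    apply hv
    generalize k % 5 = r at hk5 hlt
    have key : ∀ j : ℕ, (g ^ (r * j)) v = v := by
      intro j
      rw [pow_mul, ← hk5]
      induction j with
      | zero => simp
      | succ j ih => rw [pow_succ, MulAut.mul_apply, hsv', ih]
    have hred : ∀ j : ℕ, (r * j) % 5 = 1 → g v = v := by
      intro j hj
      have h1 := key j
      rw [pow_eq_pow_mod (r * j) h5, hj, pow_one] at h1
      exact h1
    interval_cases r
    · exact absurd (by simpa using hk5) hne'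
    · exact hred 1 (by norm_num)
    · exact hred 3 (by norm_num)
    · exact hred 2 (by norm_num)
    · exact hred 4 (by norm_num)
  have hdvd := Cfsg.Agent.Lib.SelfCent.card_dvd_of_free hfree
  have hcz : Nat.card (Subgroup.zpowers g) = 5 := by rw [Nat.card_zpowers, ho]
  rw [hcz] at hdvd
  let A : Subgroup W :=
    { carrier := {v | g v = v}
      mul_mem' := by
        intro a b ha hb
        change g (a * b) = a * b
        rw [map_mul, show g a = a from ha, show g b = b from hb]
      one_mem' := map_one g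
      inv_mem' := by
        intro a ha
        change g a⁻¹ = a⁻¹
        rw [map_inv, show g a = a from ha] }
  have hAdvd : Nat.card A ∣ Nat.card W := Subgroup.card_subgroup_dvd_card A
  have hsum : Nat.card A + Nat.card Y = Nat.card W := by
    have h1 := Set.ncard_add_ncard_compl (A : Set W)
    rw [← h1, ← Nat.card_coe_set_eq, ← Nat.card_coe_set_eq]
    rfl
  have hY : 0 < Nat.card Y := by
    obtain ⟨v, hv⟩ : ∃ v, g v ≠ v := by
      by_contra hall
      push Not at hall
      exact hne (MulEquiv.ext hall)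
    have : Nonempty Y := ⟨⟨v, hv⟩⟩
    exact Nat.card_pos
  have hA2 : 2 ≤ Nat.card A := by
    have : Nontrivial A := ⟨⟨⟨x, hx⟩, 1, fun h' => hx1 (congrArg Subtype.val h')⟩⟩
    exact Finite.one_lt_card
  obtain ⟨n, hn⟩ := card_pow_two h
  have hn4 : n ≤ 4 := by
    by_contra hlt
    have : 2 ^ 5 ≤ 2 ^ n := Nat.pow_le_pow_right (by norm_num) (by omega)
    omega
  obtain ⟨c, hc⟩ := hdvd
  rw [hn] at hAdvd hsum
  generalize Nat.card A = a at *
  generalize Nat.card Y = y at *
  have hale : a ≤ 2 ^ n := Nat.le_of_dvd (by positivity) hAdvd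
  interval_cases n <;> norm_num at hsum hale hAdvd <;> interval_cases a <;> omega

theorem pentagon : ∀ σ : Fin 5 → Fin 5,
    (∀ i, σ (σ (σ i)) = i) →
    (∀ i j : Fin 5, (j - i = 1 ∨ j - i = 4) → (σ j - σ i = 1 ∨ σ j - σ i = 4)) →
    ∀ i, σ i = i := by decide +kernel

/-- Automorphisms of order five and of order three cannot both preserve `q`. -/
theorem no_three_five [Finite W] (hcard : Nat.card W ≤ 16) (g g₃ : MulAut W)
    (hg : ∀ w, q (g w) = q w) (hg₃ : ∀ w, q (g₃ w) = q w) (h5 : g ^ 5 = 1) (hne : g ≠ 1)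
    (h3 : g₃ ^ 3 = 1) (hne3 : g₃ ≠ 1) : False := by
  classical
  have hcan := wcancel h
  have hc := wc h
  have hlc := wlc h
  have hucan := ucancel h
  have huc := uc h
  have hulc := ulc h
  have hfpf : ∀ {x : W}, g x = x → x = 1 := fun hx => fpf5 h hcard g h5 hne hx
  obtain ⟨x, hx⟩ : ∃ x : W, x ≠ 1 := by
    by_contra hall
    push Not at hall
    apply hne
    apply MulEquiv.ext
    intro w
    rw [hall w, map_one]
    rfl
  have hg5 : ∀ w, g (g (g (g (g w)))) = w := by
    intro w
    have := DFunLike.congr_fun h5 w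
    simpa [pow_succ] using this
  -- powers
  have hgi : ∀ (k : ℕ) (w : W), q ((g ^ k) w) = q w := by
    intro k
    induction k with
    | zero => intro w; simp
    | succ k ih => intro w; rw [pow_succ, MulAut.mul_apply, ih, hg]
  let pw : Fin 5 → W := fun i => (g ^ (i : ℕ)) x
  have hpow : ∀ i j : Fin 5, g ^ ((i + j : Fin 5) : ℕ) = g ^ (i : ℕ) * g ^ (j : ℕ) := by
    intro i j
    rw [Fin.val_add, ← pow_eq_pow_mod _ h5, pow_add]
  have hroot : ∀ k : Fin 5, k ≠ 0 → ∃ j : ℕ, (g ^ (k : ℕ)) ^ j = g := by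
    intro k hk
    have e6 : g ^ 6 = g := by rw [show 6 = 5 + 1 by norm_num, pow_add, h5, one_mul, pow_one]
    have e16 : g ^ 16 = g := by
      rw [show 16 = 5 * 3 + 1 by norm_num, pow_add, pow_mul, h5, one_pow, one_mul, pow_one]
    fin_cases k
    · exact absurd rfl hk
    · exact ⟨1, by simp⟩
    · exact ⟨3, by simp only [← pow_mul]; exact e6⟩
    · exact ⟨2, by simp only [← pow_mul]; exact e6⟩
    · exact ⟨4, by simp only [← pow_mul]; exact e16⟩
  have hfpfk : ∀ (k : Fin 5), k ≠ 0 → ∀ w, (g ^ (k : ℕ)) w = w → w = 1 := by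
    intro k hk w hw
    obtain ⟨j, hj⟩ := hroot k hk
    apply hfpf
    rw [← hj]
    clear hj
    induction j with
    | zero => simp
    | succ j ih => rw [pow_succ, MulAut.mul_apply, hw, ih]
  have hgi_inj : ∀ (w : W), w ≠ 1 → ∀ i j : Fin 5, (g ^ (i : ℕ)) w = (g ^ (j : ℕ)) w → i = j := by
    intro w hw i j hij
    by_contra hne'
    have hk : j - i ≠ 0 := sub_ne_zero.mpr (Ne.symm hne')
    apply hw
    apply hfpfk (j - i) hk
    have e : g ^ (j : ℕ) = g ^ (i : ℕ) * g ^ ((j - i : Fin 5) : ℕ) := by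
      rw [← hpow]
      simp
    rw [e, MulAut.mul_apply] at hij
    exact ((g ^ (i : ℕ)).injective hij).symm
  -- the values of the polarization
  obtain ⟨c, hc'⟩ : ∃ c, c = q x := ⟨_, rfl⟩
  obtain ⟨b₁, hb₁⟩ : ∃ b₁, b₁ = pol q x (g x) := ⟨_, rfl⟩
  obtain ⟨b₂, hb₂⟩ : ∃ b₂, b₂ = pol q x (g (g x)) := ⟨_, rfl⟩
  have hc1 : c ≠ 1 := by rw [hc']; exact q_ne_one h hx
  have hq : ∀ i : Fin 5, q (pw i) = c := fun i => by rw [hgi, hc']
  have hpe : ∀ k (a b : W), pol q ((g ^ k) a) ((g ^ k) b) = pol q a b := by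
    intro k a b
    exact pol_equiv h (g ^ k) (hgi k) a b
  let β : Fin 5 → U := ![1, b₁, b₂, b₂, b₁]
  have hβ0 : ∀ k : Fin 5, pol q x ((g ^ (k : ℕ)) x) = β k := by
    intro k
    fin_cases k
    · simp [β, pol_self h]
    · simp [β, hb₁]
    · simp [β, hb₂, pow_two]
    · have : pol q x (g (g (g x))) = b₂ := by
        rw [← pol_equiv h g hg, ← pol_equiv h g hg, hg5, pol_symm h, hb₂]
      simp [β, this, pow_succ]
    · have : pol q x (g (g (g (g x)))) = b₁ := by
        rw [← pol_equiv h g hg, hg5, pol_symm h, hb₁]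
      simp [β, this, pow_succ]
  have hβ : ∀ i j : Fin 5, pol q (pw i) (pw j) = β (j - i) := by
    intro i j
    have e : g ^ (j : ℕ) = g ^ (i : ℕ) * g ^ ((j - i : Fin 5) : ℕ) := by
      rw [← hpow]
      simp
    change pol q ((g ^ (i : ℕ)) x) ((g ^ (j : ℕ)) x) = _
    rw [e, MulAut.mul_apply, hpe, hβ0]
  -- the relation among c, b₁, b₂
  have hprod : x * (g x * (g (g x) * (g (g (g x)) * g (g (g (g x)))))) = 1 := by
    apply hfpf
    simp only [map_mul, hg5]
    simp only [mul_assoc, hc, hlc]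
  have e0 : pw 0 = x := by simp [pw]
  have e1 : pw 1 = g x := by simp [pw]
  have e2 : pw 2 = g (g x) := by simp [pw, pow_succ]
  have e3 : pw 3 = g (g (g x)) := by simp [pw, pow_succ]
  have e4 : pw 4 = g (g (g (g x))) := by simp [pw, pow_succ]
  rw [← e4, ← e3, ← e2, ← e1, ← e0] at hprod
  have p01 : pol q (pw 0) (pw 1) = b₁ := hβ 0 1
  have p02 : pol q (pw 0) (pw 2) = b₂ := hβ 0 2
  have p03 : pol q (pw 0) (pw 3) = b₂ := hβ 0 3
  have p04 : pol q (pw 0) (pw 4) = b₁ := hβ 0 4
  have p12 : pol q (pw 1) (pw 2) = b₁ := hβ 1 2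
  have p13 : pol q (pw 1) (pw 3) = b₂ := hβ 1 3
  have p14 : pol q (pw 1) (pw 4) = b₂ := hβ 1 4
  have p23 : pol q (pw 2) (pw 3) = b₁ := hβ 2 3
  have p24 : pol q (pw 2) (pw 4) = b₂ := hβ 2 4
  have p34 : pol q (pw 3) (pw 4) = b₁ := hβ 3 4
  have hrel : c * (b₁ * b₂) = 1 := by
    have hQ := congrArg q hprod
    rw [q_one h] at hQ
    simp only [q_mul h, bil_right h, hq, p01, p02, p03, p04, p12, p13, p14, p23, p24, p34] at hQ
    simp only [mul_assoc, huc, hulc, hucan, h.u2, mul_one] at hQ
    exact hQ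
  -- the three orbit representatives
  have hne01 : pw 1 ≠ pw 0 := fun h' => absurd (hgi_inj x hx 1 0 h') (by decide)
  have hne02 : pw 2 ≠ pw 0 := fun h' => absurd (hgi_inj x hx 2 0 h') (by decide)
  obtain ⟨x₁, hx₁⟩ : ∃ x₁, x₁ = pw 0 * pw 1 := ⟨_, rfl⟩
  obtain ⟨x₂, hx₂⟩ : ∃ x₂, x₂ = pw 0 * pw 2 := ⟨_, rfl⟩
  have hqx₁ : q x₁ = b₁ := by
    rw [hx₁, q_mul h, hq, hq, p01, hucan]
  have hqx₂ : q x₂ = b₂ := by
    rw [hx₂, q_mul h, hq, hq, p02, hucan]
  have hsqc : c * c = 1 := h.u2 c
  have hb11 : b₁ ≠ 1 := by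
    intro h1
    have h2 : x₁ = 1 := h.anis x₁ (by rw [hqx₁, h1])
    rw [hx₁] at h2
    apply hne01
    exact mul_right_cancel (b := pw 1) (by rw [h.w2, h2])
  have hb21 : b₂ ≠ 1 := by
    intro h1
    have h2 : x₂ = 1 := h.anis x₂ (by rw [hqx₂, h1])
    rw [hx₂] at h2
    apply hne02
    exact mul_right_cancel (b := pw 2) (by rw [h.w2, h2])
  have hb12 : b₁ ≠ b₂ := by
    intro h1
    rw [h1, h.u2, mul_one] at hrel
    exact hc1 hrel
  have hcb1 : c ≠ b₁ := by
    intro h1
    rw [h1, hucan] at hrel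
    exact hb21 hrel
  have hcb2 : c ≠ b₂ := by
    intro h1
    rw [h1, huc b₁ b₂, hucan] at hrel
    exact hb11 hrel
  -- the whole group is covered
  let rep : Fin 3 → W := ![x, x₁, x₂]
  let val : Fin 3 → U := ![c, b₁, b₂]
  have hval_inj : Function.Injective val := by
    intro a b hab
    fin_cases a <;> fin_cases b <;> first
      | rfl
      | exact absurd hab (by simpa [val] using hcb1)
      | exact absurd hab (by simpa [val] using hcb2)
      | exact absurd hab (by simpa [val] using hb12)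
      | exact absurd hab (by simpa [val] using hcb1.symm)
      | exact absurd hab (by simpa [val] using hcb2.symm)
      | exact absurd hab (by simpa [val] using hb12.symm)
  have hqrep : ∀ a, q (rep a) = val a := by
    intro a
    fin_cases a
    · exact hc'.symm
    · exact hqx₁
    · exact hqx₂
  have hval1 : ∀ a, val a ≠ 1 := by
    intro a
    fin_cases a
    · exact hc1
    · exact hb11
    · exact hb21
  let F : Fin 3 × Fin 5 → W := fun p => (g ^ (p.2 : ℕ)) (rep p.1)
  have hqF : ∀ p, q (F p) = val p.1 := fun p => by rw [hgi, hqrep]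
  have hF_inj : Function.Injective F := by
    rintro ⟨a, i⟩ ⟨b, j⟩ hab
    have h1 : val a = val b := by
      have := congrArg q hab
      rwa [hqF, hqF] at this
    have hab' := hval_inj h1
    subst hab'
    have hr1 : rep a ≠ 1 := fun h2 => hval1 a (by rw [← hqrep, h2, q_one h])
    rw [hgi_inj (rep a) hr1 i j hab]
  have hF1 : ∀ p, F p ≠ 1 := fun p h1 => hval1 p.1 (by rw [← hqF p, h1, q_one h])
  haveI := Fintype.ofFinite W
  have hcover : ∀ w : W, w ≠ 1 → ∃ p, w = F p := by
    let S : Finset W := insert 1 (Finset.univ.image F)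
    have hS : S.card = 16 := by
      rw [Finset.card_insert_of_notMem, Finset.card_image_of_injective _ hF_inj]
      · simp
      · simp only [Finset.mem_image, not_exists, not_and]
        intro p _
        exact hF1 p
    have hS' : S = Finset.univ := by
      apply Finset.eq_univ_of_card
      have h1 := Finset.card_le_univ S
      rw [Nat.card_eq_fintype_card] at hcard
      omega
    intro w hw
    have h1 : w ∈ S := by rw [hS']; exact Finset.mem_univ w
    rw [Finset.mem_insert] at h1
    rcases h1 with h1 | h1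
    · exact absurd h1 hw
    · obtain ⟨p, -, hp⟩ := Finset.mem_image.mp h1
      exact ⟨p, hp.symm⟩
  -- the action of g₃ on the orbit of x
  have hσ : ∀ i : Fin 5, ∃ j, g₃ (pw i) = pw j := by
    intro i
    have h1 : q (g₃ (pw i)) = c := by rw [hg₃, hq]
    have h2 : g₃ (pw i) ≠ 1 := fun h' => hc1 (by rw [← h1, h', q_one h])
    obtain ⟨⟨a, j⟩, hp⟩ := hcover _ h2
    have h3' : val a = val 0 := by
      have := hqF (a, j)
      rw [← hp, h1] at this
      exact this.symm
    have h4 := hval_inj h3'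
    subst h4
    exact ⟨j, hp⟩
  choose σ hσ' using hσ
  have hg33 : ∀ w, g₃ (g₃ (g₃ w)) = w := by
    intro w
    have := DFunLike.congr_fun h3 w
    simpa [pow_succ] using this
  have hpw_inj : Function.Injective pw := fun i j hij => hgi_inj x hx i j hij
  have hσ3 : ∀ i, σ (σ (σ i)) = i := by
    intro i
    apply hpw_inj
    rw [← hσ', ← hσ', ← hσ', hg33]
  have hadj : ∀ i j : Fin 5, (j - i = 1 ∨ j - i = 4) → (σ j - σ i = 1 ∨ σ j - σ i = 4) := by
    intro i j hij
    have h1 : β (j - i) = b₁ := by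
      rcases hij with h1 | h1 <;> rw [h1] <;> rfl
    have h2 : pol q (g₃ (pw i)) (g₃ (pw j)) = b₁ := by
      rw [pol_equiv h g₃ hg₃, hβ, h1]
    rw [hσ', hσ', hβ] at h2
    generalize σ j - σ i = k at h2 ⊢
    fin_cases k
    · exact absurd h2.symm hb11
    · left; rfl
    · exact absurd h2.symm hb12
    · exact absurd h2.symm hb12
    · right; rfl
  have hσid := pentagon h σ hσ3 hadj
  have hfix : ∀ i, g₃ (pw i) = pw i := fun i => by rw [hσ', hσid]
  have hgpw : ∀ i j : Fin 5, (g ^ (i : ℕ)) (pw j) = pw (i + j) := by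
    intro i j
    change (g ^ (i : ℕ)) ((g ^ (j : ℕ)) x) = (g ^ ((i + j : Fin 5) : ℕ)) x
    rw [hpow, MulAut.mul_apply]
  apply hne3
  apply MulEquiv.ext
  intro w
  change g₃ w = w
  by_cases hw : w = 1
  · rw [hw, map_one]
  obtain ⟨⟨a, i⟩, rfl⟩ := hcover w hw
  change g₃ ((g ^ (i : ℕ)) (rep a)) = (g ^ (i : ℕ)) (rep a)
  fin_cases a
  · change g₃ ((g ^ (i : ℕ)) x) = (g ^ (i : ℕ)) x
    rw [← e0, hgpw, hfix]
  · change g₃ ((g ^ (i : ℕ)) x₁) = (g ^ (i : ℕ)) x₁
    rw [hx₁, map_mul, hgpw, hgpw, map_mul, hfix, hfix]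
  · change g₃ ((g ^ (i : ℕ)) x₂) = (g ^ (i : ℕ)) x₂
    rw [hx₂, map_mul, hgpw, hgpw, map_mul, hfix, hfix]

end five

theorem zmod2_cases : ∀ c : ZMod 2, c = 0 ∨ c = 1 := by decide

section final

variable {q : W → U} (h : QF q)
include h

/-- The group of automorphisms preserving `q` is solvable. -/
theorem solvable_of_preserving [Finite W] (hcard : Nat.card W ≤ 16) (G : Subgroup (MulAut W))
    (hG : ∀ g ∈ G, ∀ w, q (g w) = q w) : Group.IsSolvable G := by
  classical
  obtain ⟨f, hf⟩ := Cfsg.Agent.S3103.mulAut_embed (wc h)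
    (fun v => by rw [pow_two, h.w2]) hcard
  have hfin : Finite (MulAut W) := Finite.of_injective _ hf
  have hn : Nat.card G ∣ 20160 := by
    have h1 : Nat.card (Matrix.GeneralLinearGroup (Fin 4) (ZMod 2)) = 20160 := by
      rw [Matrix.card_GL_field]
      simp [ZMod.card, Fin.prod_univ_succ]
    rw [← h1]
    refine (Subgroup.card_subgroup_dvd_card G).trans ?_
    have h2 := Subgroup.card_subgroup_dvd_card f.range
    rwa [Nat.card_congr (MonoidHom.ofInjective hf).toEquiv.symm] at h2
  have hn7 : ¬ 7 ∣ Nat.card G := by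
    intro hd
    have : Fact (Nat.Prime 7) := ⟨by norm_num⟩
    obtain ⟨g, hg⟩ := exists_prime_orderOf_dvd_card' 7 hd
    refine no_seven h g.1 (hG g.1 g.2) ?_ ?_
    · have := pow_orderOf_eq_one g
      rw [hg] at this
      exact congrArg Subtype.val this
    · intro h1
      have h2 : g = 1 := Subtype.ext h1
      rw [h2, orderOf_one] at hg
      omega
  have hn35 : ¬ (3 ∣ Nat.card G ∧ 5 ∣ Nat.card G) := by
    rintro ⟨h3, h5⟩
    have : Fact (Nat.Prime 3) := ⟨by norm_num⟩
    have : Fact (Nat.Prime 5) := ⟨by norm_num⟩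
    obtain ⟨g₃, hg₃⟩ := exists_prime_orderOf_dvd_card' 3 h3
    obtain ⟨g₅, hg₅⟩ := exists_prime_orderOf_dvd_card' 5 h5
    refine no_three_five h hcard g₅.1 g₃.1 (hG g₅.1 g₅.2) (hG g₃.1 g₃.2) ?_ ?_ ?_ ?_
    · have := pow_orderOf_eq_one g₅
      rw [hg₅] at this
      exact congrArg Subtype.val this
    · intro h1
      have h2 : g₅ = 1 := Subtype.ext h1
      rw [h2, orderOf_one] at hg₅
      omega
    · have := pow_orderOf_eq_one g₃
      rw [hg₃] at this
      exact congrArg Subtype.val this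
    · intro h1
      have h2 : g₃ = 1 := Subtype.ext h1
      rw [h2, orderOf_one] at hg₃
      omega
  have hc7 : Nat.Coprime (Nat.card G) 7 := by
    rw [Nat.coprime_comm]
    exact (Nat.Prime.coprime_iff_not_dvd (by norm_num)).mpr hn7
  have h2880 : Nat.card G ∣ 2880 := hc7.dvd_of_dvd_mul_right (by simpa using hn)
  by_cases h5 : 5 ∣ Nat.card G
  · have h3 : ¬ 3 ∣ Nat.card G := fun h3 => hn35 ⟨h3, h5⟩
    have hc3 : Nat.Coprime (Nat.card G) 9 := by
      rw [Nat.coprime_comm, show (9 : ℕ) = 3 ^ 2 by norm_num]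
      exact Nat.Coprime.pow_left 2 ((Nat.Prime.coprime_iff_not_dvd (by norm_num)).mpr h3)
    have h320 : Nat.card G ∣ 2 ^ 6 * 5 ^ 1 :=
      hc3.dvd_of_dvd_mul_right (by simpa using h2880)
    obtain ⟨a₁, b₁, ha, hb, hab⟩ := (Nat.dvd_mul).mp h320
    obtain ⟨a, -, rfl⟩ := (Nat.dvd_prime_pow Nat.prime_two).mp ha
    obtain ⟨b, -, rfl⟩ := (Nat.dvd_prime_pow (by norm_num : Nat.Prime 5)).mp hb
    exact Cfsg.Agent.Lib.BurnsidePQ.isSolvable_of_card_eq 2 5 Nat.prime_two (by norm_num)
      (Nat.card G) G rfl ⟨a, b, hab.symm⟩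
  · have hc5 : Nat.Coprime (Nat.card G) 5 := by
      rw [Nat.coprime_comm]
      exact (Nat.Prime.coprime_iff_not_dvd (by norm_num)).mpr h5
    have h576 : Nat.card G ∣ 2 ^ 6 * 3 ^ 2 :=
      hc5.dvd_of_dvd_mul_right (by simpa using h2880)
    obtain ⟨a₁, b₁, ha, hb, hab⟩ := (Nat.dvd_mul).mp h576
    obtain ⟨a, -, rfl⟩ := (Nat.dvd_prime_pow Nat.prime_two).mp ha
    obtain ⟨b, -, rfl⟩ := (Nat.dvd_prime_pow (by norm_num : Nat.Prime 3)).mp hb
    exact Cfsg.Agent.Lib.BurnsidePQ.isSolvable_of_card_eq 2 3 Nat.prime_two (by norm_num)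
      (Nat.card G) G rfl ⟨a, b, hab.symm⟩

/-- The bound on `|W|`, from Chevalley--Warning. -/
theorem card_le [Finite W] [Finite U] (hU : Nat.card U ≤ 4) : Nat.card W ≤ 16 := by
  classical
  by_contra hW
  push Not at hW
  letI instW : CommGroup W := { (inferInstance : Group W) with mul_comm := wc h }
  letI instU : CommGroup U := { (inferInstance : Group U) with mul_comm := uc h }
  have h2W : ∀ x : Additive W, (2 : ℕ) • x = 0 := fun x => by
    change Additive.ofMul ((Additive.toMul x) ^ 2) = 0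
    rw [pow_two, h.w2]
    rfl
  have h2U : ∀ x : Additive U, (2 : ℕ) • x = 0 := fun x => by
    change Additive.ofMul ((Additive.toMul x) ^ 2) = 0
    rw [pow_two, h.u2]
    rfl
  letI : Module (ZMod 2) (Additive W) := AddCommGroup.zmodModule h2W
  letI : Module (ZMod 2) (Additive U) := AddCommGroup.zmodModule h2U
  have hp : Fact (Nat.Prime 2) := ⟨Nat.prime_two⟩
  have : Module.Finite (ZMod 2) (Additive W) := Module.Finite.of_finite
  have : Module.Finite (ZMod 2) (Additive U) := Module.Finite.of_finite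
  have hcardW : Nat.card (Additive W) = 2 ^ Module.finrank (ZMod 2) (Additive W) := by
    have := Module.natCard_eq_pow_finrank (K := ZMod 2) (V := Additive W)
    simpa using this
  have hcardU : Nat.card (Additive U) = 2 ^ Module.finrank (ZMod 2) (Additive U) := by
    have := Module.natCard_eq_pow_finrank (K := ZMod 2) (V := Additive U)
    simpa using this
  have hd : 5 ≤ Module.finrank (ZMod 2) (Additive W) := by
    by_contra hlt
    have : 2 ^ Module.finrank (ZMod 2) (Additive W) ≤ 2 ^ 4 :=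
      Nat.pow_le_pow_right (by norm_num) (by omega)
    have h3 : Nat.card (Additive W) = Nat.card W := rfl
    omega
  have hdU : Module.finrank (ZMod 2) (Additive U) ≤ 2 := by
    by_contra hlt
    have : 2 ^ 3 ≤ 2 ^ Module.finrank (ZMod 2) (Additive U) :=
      Nat.pow_le_pow_right (by norm_num) (by omega)
    have h3 : Nat.card (Additive U) = Nat.card U := rfl
    omega
  -- coordinates on `U`
  obtain ⟨ι, hι⟩ : ∃ ι : Additive U →ₗ[ZMod 2] (Fin 2 → ZMod 2), Function.Injective ι := by
    let U' := Fin (2 - Module.finrank (ZMod 2) (Additive U)) → ZMod 2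
    have hfr : Module.finrank (ZMod 2) (Additive U × U') =
        Module.finrank (ZMod 2) (Fin 2 → ZMod 2) := by
      rw [Module.finrank_prod]
      simp [U']
      omega
    let e : (Additive U × U') ≃ₗ[ZMod 2] (Fin 2 → ZMod 2) := LinearEquiv.ofFinrankEq _ _ hfr
    refine ⟨e.toLinearMap ∘ₗ LinearMap.inl _ _ _, ?_⟩
    intro a b hab
    have := e.injective hab
    exact congrArg Prod.fst this
  obtain ⟨e, he⟩ := exists_linearIndependent_of_le_finrank hd
  -- the quadratic map in coordinates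
  let Q : Additive W → (Fin 2 → ZMod 2) := fun a => ι (Additive.ofMul (q (Additive.toMul a)))
  let Bil : Additive W → Additive W → (Fin 2 → ZMod 2) := fun a b =>
    ι (Additive.ofMul (pol q (Additive.toMul a) (Additive.toMul b)))
  have hQadd : ∀ a b, Q (a + b) = Q a + Q b + Bil a b := by
    intro a b
    change ι (Additive.ofMul (q (Additive.toMul a * Additive.toMul b))) = _
    rw [q_mul h, ofMul_mul, ofMul_mul, map_add, map_add]
    simp only [Q, Bil, add_assoc]
  have hBl : ∀ a a' b, Bil (a + a') b = Bil a b + Bil a' b := by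
    intro a a' b
    change ι (Additive.ofMul (pol q (Additive.toMul a * Additive.toMul a') (Additive.toMul b))) = _
    rw [h.bil, ofMul_mul, map_add]
  have hBr : ∀ a b b', Bil a (b + b') = Bil a b + Bil a b' := by
    intro a b b'
    change ι (Additive.ofMul (pol q (Additive.toMul a) (Additive.toMul b * Additive.toMul b'))) = _
    rw [bil_right h, ofMul_mul, map_add]
  have hB0l : ∀ b, Bil 0 b = 0 := by
    intro b
    have h1 := hBl 0 0 b
    rw [add_zero] at h1
    exact left_eq_add.mp h1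
  have hB0r : ∀ b, Bil b 0 = 0 := by
    intro b
    have h1 := hBr b 0 0
    rw [add_zero] at h1
    exact left_eq_add.mp h1
  have hQ0 : Q 0 = 0 := by
    change ι (Additive.ofMul (q 1)) = 0
    rw [q_one h]
    exact map_zero ι
  have hz2 := zmod2_cases
  have hQs : ∀ (c : ZMod 2) a, Q (c • a) = (c * c) • Q a := by
    intro c a
    rcases hz2 c with rfl | rfl
    · simp [hQ0]
    · simp
  have hBs : ∀ (c d : ZMod 2) a b, Bil (c • a) (d • b) = (c * d) • Bil a b := by
    intro c d a b
    rcases hz2 c with rfl | rfl <;> rcases hz2 d with rfl | rfl <;> simp [hB0l, hB0r]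
  let w : (Fin 5 → ZMod 2) → Additive W := fun x => ∑ i, x i • e i
  let m : Fin 2 → Fin 5 → Fin 5 → ZMod 2 := fun k i j =>
    if i < j then Bil (e i) (e j) k else if i = j then Q (e i) k else 0
  let P : Fin 2 → MvPolynomial (Fin 5) (ZMod 2) := fun k =>
    ∑ i, ∑ j, MvPolynomial.C (m k i j) * MvPolynomial.X i * MvPolynomial.X j
  have hdeg : ∀ k, (P k).totalDegree ≤ 2 := by
    intro k
    refine MvPolynomial.totalDegree_finsetSum_le (fun i _ => ?_)
    refine MvPolynomial.totalDegree_finsetSum_le (fun j _ => ?_)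
    refine (MvPolynomial.totalDegree_mul _ _).trans ?_
    have h1 := MvPolynomial.totalDegree_mul (MvPolynomial.C (m k i j)) (MvPolynomial.X i : MvPolynomial (Fin 5) (ZMod 2))
    have h2 : (MvPolynomial.C (m k i j) : MvPolynomial (Fin 5) (ZMod 2)).totalDegree = 0 :=
      MvPolynomial.totalDegree_C _
    have h3 : (MvPolynomial.X i : MvPolynomial (Fin 5) (ZMod 2)).totalDegree = 1 :=
      MvPolynomial.totalDegree_X _
    have h4 : (MvPolynomial.X j : MvPolynomial (Fin 5) (ZMod 2)).totalDegree = 1 :=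
      MvPolynomial.totalDegree_X _
    omega
  have heval : ∀ k x, MvPolynomial.eval x (P k) = Q (w x) k := by
    intro k x
    simp only [P, w, m, map_sum, map_mul, MvPolynomial.eval_C, MvPolynomial.eval_X,
      Fin.sum_univ_five, hQadd, hBl, hBr, hQs, hBs, Pi.add_apply, Pi.smul_apply, smul_eq_mul]
    simp
    ring
  have hcw : 2 ∣ Fintype.card {x : Fin 5 → ZMod 2 //
      MvPolynomial.eval x (P 0) = 0 ∧ MvPolynomial.eval x (P 1) = 0} := by
    apply char_dvd_card_solutions_of_add_lt 2
    have h1 := hdeg 0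
    have h2 := hdeg 1
    simp only [Fintype.card_fin]
    omega
  have hzero : ∀ k, MvPolynomial.eval (0 : Fin 5 → ZMod 2) (P k) = 0 := by
    intro k
    rw [heval]
    have : w 0 = 0 := by simp [w]
    rw [this, hQ0]
    rfl
  let x0 : {x : Fin 5 → ZMod 2 //
      MvPolynomial.eval x (P 0) = 0 ∧ MvPolynomial.eval x (P 1) = 0} := ⟨0, hzero 0, hzero 1⟩
  have hcard1 : 1 < Fintype.card {x : Fin 5 → ZMod 2 //
      MvPolynomial.eval x (P 0) = 0 ∧ MvPolynomial.eval x (P 1) = 0} := by
    have h1 : 0 < Fintype.card {x : Fin 5 → ZMod 2 //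
      MvPolynomial.eval x (P 0) = 0 ∧ MvPolynomial.eval x (P 1) = 0} :=
      Fintype.card_pos_iff.mpr ⟨x0⟩
    have h2 := Nat.le_of_dvd h1 hcw
    omega
  obtain ⟨y, hy⟩ := Fintype.exists_ne_of_one_lt_card hcard1 x0
  have hQy : Q (w y.1) = 0 := by
    funext k
    fin_cases k
    · rw [← heval]
      exact y.2.1
    · rw [← heval]
      exact y.2.2
  have hw1 : w y.1 = 0 := by
    have h1 : Additive.ofMul (q (Additive.toMul (w y.1))) = 0 := hι (by rw [map_zero]; exact hQy)
    have h2 : q (Additive.toMul (w y.1)) = 1 := h1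
    have h3 := h.anis _ h2
    exact h3
  have hy0 := Fintype.linearIndependent_iff.mp he y.1 hw1
  apply hy
  apply Subtype.ext
  funext i
  exact hy0 i

end final

end Cfsg.Agent.Lib.AnisoCore
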