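import Mathlib
import Cfsg.Agent.Lib.ZJCore2

/-!
# The ZJ-theorem for an axiomatic family of abelian subgroups of a Sylow subgroup.
-/

set_option autoImplicit false

open Cfsg
open scoped commutatorElement

namespace Cfsg.Agent.Lib.AxZJ

open Cfsg.Agent.Lib.PCore Cfsg.Agent.Lib.ZJCore2

variable {G : Type*} [Group G]
variable {p : ℕ} [Fact p.Prime]

/-- The intersection of the members of `𝒜` inside `Q`. -/
def Ifam {X : Type*} [Group X] (𝒜 : Set (Subgroup X)) (Q : Subgroup X) : Subgroup X :=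
  sInf {A | A ∈ 𝒜 ∧ A ≤ Q}

/-- The ZJ-theorem for an axiomatic family: invariance of the intersections instead of closure under conjugation. -/
theorem zj_ax [Finite G] (P : Sylow p G) (𝒜 : Set (Subgroup G))
    (hne : 𝒜.Nonempty)
    (hle : ∀ A ∈ 𝒜, A ≤ (P : Subgroup G))
    (hab : ∀ A ∈ 𝒜, ∀ x ∈ A, ∀ y ∈ A, x * y = y * x)
    (hinv : ∀ Q : Subgroup G, Q ≤ (P : Subgroup G) → (∃ A ∈ 𝒜, A ≤ Q) → ∀ g : G, (∀ x ∈ Q, g * x * g⁻¹ ∈ Q) →
      ∀ x ∈ Ifam 𝒜 Q, g * x * g⁻¹ ∈ Ifam 𝒜 Q)
    (hrep : ∀ B : Subgroup G, B ≤ (P : Subgroup G) → (∀ t ∈ (P : Subgroup G), ∀ b ∈ B, t * b * t⁻¹ ∈ B) →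
      ⁅⁅B, B⁆, B⁆ = ⊥ → ∀ U ∈ 𝒜, ⁅B, B⁆ ≤ U → ¬ B ≤ U →
      ∃ A ∈ 𝒜, ⁅B, B⁆ ≤ A ∧ ¬ B ≤ A ∧ B ≤ Subgroup.normalizer (A : Set G))
    (hc : Subgroup.centralizer (pCore p G : Set G) ≤ pCore p G)
    (hst : ∀ (V : Subgroup G) [V.Normal], IsPGroup p V → IsPStableOn p V) :
    (sInf 𝒜).Normal := by
  classical
  set Q := pCore p G with hQ
  set Z := sInf 𝒜 with hZ
  have hZA : ∀ A ∈ 𝒜, Z ≤ A := fun A hA => sInf_le hA
  set W := Z.normalCore with hW
  have hWn : W.Normal := inferInstance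
  have hWZ : W ≤ Z := Subgroup.normalCore_le Z
  by_contra hnot
  -- P normalizes Z
  have hZI : Z = Ifam 𝒜 (P : Subgroup G) := by
    rw [hZ, Ifam]
    congr 1
    ext A
    exact ⟨fun h => ⟨h, hle A h⟩, fun h => h.1⟩
  have hPZ : ∀ x ∈ (P : Subgroup G), ∀ z ∈ Z, x * z * x⁻¹ ∈ Z := by
    intro x hx z hz
    rw [hZI] at hz ⊢
    obtain ⟨A, hA⟩ := hne
    exact hinv _ le_rfl ⟨A, hA, hle A hA⟩ x (fun y hy => (P : Subgroup G).mul_mem
      ((P : Subgroup G).mul_mem hx hy) ((P : Subgroup G).inv_mem hx)) z hz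
  -- W is a proper subgroup of Z
  have hWne : ¬ Z ≤ W := by
    intro h
    apply hnot
    have : Z = W := le_antisymm h hWZ
    rw [this]; exact hWn
  -- find z
  have hP_nil : Group.IsNilpotent (P : Subgroup G) := P.isPGroup'.isNilpotent
  have hZP : Z ≤ (P : Subgroup G) := by
    obtain ⟨A, hA⟩ := hne
    exact (hZA A hA).trans (hle A hA)
  obtain ⟨z, hzZ, hzW, hzcomm⟩ : ∃ z ∈ Z, z ∉ W ∧ ∀ x ∈ (P : Subgroup G), ⁅z, x⁆ ∈ W := by
    set PP : Subgroup G := (P : Subgroup G) with hPP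
    let W' : Subgroup PP := W.subgroupOf PP
    have hW'n : W'.Normal := inferInstance
    let X := PP ⧸ W'
    let π : PP →* X := QuotientGroup.mk' W'
    have hπ : Function.Surjective π := QuotientGroup.mk'_surjective W'
    let Z' : Subgroup PP := Z.subgroupOf PP
    have hZ'n : Z'.Normal := by
      constructor
      intro n hn g
      exact hPZ g g.2 n hn
    let N : Subgroup X := Z'.map π
    have hNn : N.Normal := Subgroup.Normal.map hZ'n π hπ
    have hXnil : Group.IsNilpotent X := (P.isPGroup'.to_quotient W').isNilpotent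
    have hNne : N ≠ ⊥ := by
      intro h
      apply hWne
      intro y hy
      have hyP := hZP hy
      have h1 : π ⟨y, hyP⟩ ∈ N := ⟨⟨y, hyP⟩, hy, rfl⟩
      rw [h, Subgroup.mem_bot] at h1
      have h2 : (⟨y, hyP⟩ : PP) ∈ W' := (QuotientGroup.eq_one_iff _).mp h1
      exact h2
    obtain ⟨x, hxN, hx1, hxc⟩ := exists_center_of_normal N hNne
    obtain ⟨z₀, hz₀, rfl⟩ := hxN
    refine ⟨z₀, hz₀, ?_, ?_⟩
    · intro hW
      apply hx1
      exact (QuotientGroup.eq_one_iff _).mpr hW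
    · intro y hy
      have h1 := Subgroup.mem_center_iff.mp hxc (π ⟨y, hy⟩)
      have h2 : π ⁅z₀, ⟨y, hy⟩⁆ = 1 := by
        rw [map_commutatorElement, commutatorElement_eq_one_iff_mul_comm]
        exact h1.symm
      have h3 : (⁅z₀, ⟨y, hy⟩⁆ : PP) ∈ W' := (QuotientGroup.eq_one_iff _).mp h2
      have h4 : ((⁅z₀, ⟨y, hy⟩⁆ : PP) : G) ∈ W := h3
      simpa [commutatorElement_def] using h4
  have hzP : z ∈ (P : Subgroup G) := hZP hzZ
  have hWP : W ≤ (P : Subgroup G) := hWZ.trans hZP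
  have hWQ : W ≤ Q := le_pCore hWn (P.isPGroup'.to_le hWP)
  have hQP : Q ≤ (P : Subgroup G) := pCore_le_sylow p P
  -- T is a normal p-subgroup containing z
  have hCW : (Subgroup.centralizer (W : Set G)).Normal := Subgroup.normal_centralizer
  let C1 := Cfsg.sectionKernel Q W
  have hC1n : C1.Normal := sectionKernel_normal Q W
  let T := C1 ⊓ Subgroup.centralizer (W : Set G)
  have hTn : T.Normal := Subgroup.normal_inf_normal _ _
  have hcommZ : ∀ x ∈ Z, ∀ y ∈ Z, x * y = y * x := by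
    intro x hx y hy
    obtain ⟨A, hA⟩ := hne
    exact hab A hA x (hZA A hA hx) y (hZA A hA hy)
  have hzC1 : z ∈ C1 := by
    apply mem_sectionKernel.mpr
    intro q hq
    have h1 := hzcomm q (hQP hq)
    rw [← commutatorElement_inv]
    exact W.inv_mem h1
  have hzCW : z ∈ Subgroup.centralizer (W : Set G) := by
    rw [Subgroup.mem_centralizer_iff]
    intro w hw
    exact hcommZ w (hWZ hw) z hzZ
  have hzT : z ∈ T := ⟨hzC1, hzCW⟩
  have hTp : IsPGroup p T := by
    apply Cfsg.Agent.Lib.CharPLocal.isPGroup_of_forall_coprime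
    intro y hy hyc
    have hyQ : y ∈ Subgroup.centralizer (Q : Set G) := by
      rw [Subgroup.mem_centralizer_iff]
      intro q hq
      have h1 := mem_sectionKernel.mp hy.1 q hq
      -- k = y q y⁻¹ q⁻¹ ∈ W
      have hk : y * q * y⁻¹ * q⁻¹ ∈ W := by
        have := W.inv_mem h1
        rwa [commutatorElement_inv, commutatorElement_def] at this
      set k := y * q * y⁻¹ * q⁻¹ with hkdef
      have hy2 : y ∈ Subgroup.centralizer (W : Set G) := hy.2
      rw [Subgroup.mem_centralizer_iff] at hy2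
      have hyk : y * k * y⁻¹ = k := by
        rw [← hy2 k hk]; group
      have hyq : y * q * y⁻¹ = k * q := by rw [hkdef]; group
      have hkp : ∃ n, orderOf k = p ^ n := by
        have hkPp : IsPGroup p W := P.isPGroup'.to_le hWP
        obtain ⟨n, hn⟩ := IsPGroup.iff_orderOf.mp hkPp ⟨k, hk⟩
        exact ⟨n, by rwa [Subgroup.orderOf_mk] at hn⟩
      have hk1 := Cfsg.Agent.Lib.CharPLocal.stab_eq_one hyk hyq hyc hkp
      have h2 : y * q * y⁻¹ = q := by rw [hyq, hk1, one_mul]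
      rw [mul_inv_eq_iff_eq_mul] at h2
      exact h2.symm
    have hyQ' := hc hyQ
    have hQp : IsPGroup p Q := isPGroup_pCore p
    obtain ⟨n, hn⟩ := IsPGroup.iff_orderOf.mp hQp ⟨y, hyQ'⟩
    rw [Subgroup.orderOf_mk] at hn
    rw [hn] at hyc
    have : orderOf y = 1 := by
      rcases n with _ | n
      · simpa using hn
      · exfalso
        have h3 := Nat.Coprime.coprime_dvd_left (dvd_pow_self p (Nat.succ_ne_zero n)) hyc
        have := (Nat.coprime_self p).mp h3
        exact (Fact.out : p.Prime).one_lt.ne' this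
    exact orderOf_eq_one_iff.mp this
  have hTQ : T ≤ Q := le_pCore hTn hTp
  have hzQ : z ∈ Q := hTQ hzT
  -- Y
  let Y : Subgroup G := Subgroup.normalClosure {z} ⊔ W
  have hYn : Y.Normal := inferInstance
  have hYQ : Y ≤ Q := by
    apply sup_le
    · apply Subgroup.normalClosure_le_normal
      rintro _ rfl
      exact hzQ
    · exact hWQ
  have hYC1 : Y ≤ C1 := by
    apply sup_le
    · apply Subgroup.normalClosure_le_normal
      rintro _ rfl
      exact hzC1
    · exact le_sectionKernel Q W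
  have hYp : IsPGroup p Y := (isPGroup_pCore (G := G) p).to_le hYQ
  have hY' : ⁅Y, Y⁆ ≤ W := by
    rw [Subgroup.commutator_le]
    intro y₁ hy₁ y₂ hy₂
    exact mem_sectionKernel.mp (hYC1 hy₂) y₁ (hYQ hy₁)
  have hzY : z ∈ Y := (le_sup_left : Subgroup.normalClosure {z} ≤ Y)
    (Subgroup.subset_normalClosure rfl)
  -- M
  have hCn : (Subgroup.centralizer (Y : Set G)).Normal := Subgroup.normal_centralizer
  let C := Subgroup.centralizer (Y : Set G)
  let πC : G →* G ⧸ C := QuotientGroup.mk' C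
  have hπC : Function.Surjective πC := QuotientGroup.mk'_surjective C
  let M : Subgroup G := (pCore p (G ⧸ C)).comap πC
  have hMn : M.Normal := Subgroup.Normal.comap inferInstance πC
  have hMfac : ∀ m ∈ M, ∃ d ∈ (P : Subgroup G), ∃ c ∈ C, m = d * c := by
    intro m hm
    have h1 := pCore_le_sylow p (P.mapSurjective hπC) hm
    rw [Sylow.coe_mapSurjective] at h1
    obtain ⟨d, hd, hdm⟩ := h1
    refine ⟨d, hd, d⁻¹ * m, ?_, by group⟩
    have h2 : πC (d⁻¹ * m) = 1 := by
      rw [map_mul, map_inv, hdm]; simp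
    exact (QuotientGroup.eq_one_iff _).mp h2
  have hYM : Y ≤ Cfsg.sectionKernel M W := by
    apply sup_le
    · apply Subgroup.normalClosure_le_normal
      intro x hx
      rw [Set.mem_singleton_iff.mp hx]
      apply mem_sectionKernel.mpr
      intro m hm
      obtain ⟨d, hd, c, hc', rfl⟩ := hMfac m hm
      have h1 : c * z = z * c := by
        have hc'' : c ∈ Subgroup.centralizer (Y : Set G) := hc'
        rw [Subgroup.mem_centralizer_iff] at hc''
        exact (hc'' z hzY).symm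
      have h2 : ⁅d * c, z⁆ = ⁅d, z⁆ := by
        simp only [commutatorElement_def]
        calc d * c * z * (d * c)⁻¹ * z⁻¹ = d * (c * z) * c⁻¹ * d⁻¹ * z⁻¹ := by group
          _ = d * (z * c) * c⁻¹ * d⁻¹ * z⁻¹ := by rw [h1]
          _ = d * z * d⁻¹ * z⁻¹ := by group
      rw [h2, ← commutatorElement_inv]
      exact W.inv_mem (hzcomm d hd)
    · exact le_sectionKernel M W
  -- all members contain Y
  have hYA : ∀ U ∈ 𝒜, Y ≤ U := by
    intro U hU
    by_contra hYU
    have hYnP : ∀ t ∈ (P : Subgroup G), ∀ b ∈ Y, t * b * t⁻¹ ∈ Y := fun t _ b hb => hYn.conj_mem b hb t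
    have hYcW : Y ≤ Subgroup.centralizer (W : Set G) := by
      apply sup_le
      · apply Subgroup.normalClosure_le_normal
        intro x hx
        rw [Set.mem_singleton_iff.mp hx]
        exact hzCW
      · rw [Subgroup.le_centralizer_iff]
        intro w hw v hv
        exact hcommZ v (hWZ hv) w (hWZ hw)
    have hY2 : ⁅⁅Y, Y⁆, Y⁆ = ⊥ := by
      rw [eq_bot_iff, Subgroup.commutator_le]
      intro u hu v hv
      rw [Subgroup.mem_bot, commutatorElement_eq_one_iff_mul_comm]
      exact Subgroup.mem_centralizer_iff.mp (hYcW hv) u (hY' hu)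
    obtain ⟨A, hA, hA1, hA2, hA3⟩ := hrep Y (hYQ.trans hQP) hYnP hY2 U hU
      (hY'.trans (hWZ.trans (hZA U hU))) hYU
    have hAM : A ≤ M := by
      intro a ha
      have hq : ⁅⁅Y, Subgroup.zpowers a⁆, Subgroup.zpowers a⁆ = ⊥ := by
        have h1 : Subgroup.zpowers a ≤ A := by
          rw [Subgroup.zpowers_le]; exact ha
        have h2 : ⁅Y, Subgroup.zpowers a⁆ ≤ A := by
          rw [Subgroup.commutator_le]
          intro y hy b hb
          rw [commutatorElement_def]
          have h3 := (Subgroup.mem_normalizer_iff.mp (hA3 hy) b).mp (h1 hb)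
          exact A.mul_mem h3 (A.inv_mem (h1 hb))
        rw [eq_bot_iff, Subgroup.commutator_le]
        intro u hu v hv
        rw [Subgroup.mem_bot, commutatorElement_eq_one_iff_mul_comm]
        exact hab A hA u (h2 hu) v (h1 hv)
      exact hst Y hYp a hq
    -- now every conjugate of z lies in A
    have hconjz : ∀ g : G, g * z * g⁻¹ ∈ A := by
      intro g
      obtain ⟨m, hm, n, hn, rfl⟩ := exists_frattini P M g
      set z₁ := n * z * n⁻¹ with hz₁
      have hz₁Y : z₁ ∈ Y := hYn.conj_mem z hzY n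
      have hz₁A : z₁ ∈ A := by
        have hAQ : A ≤ (P : Subgroup G) ⊓ M := fun x hx => ⟨hle A hA hx, hAM hx⟩
        have hzI : z ∈ Ifam 𝒜 ((P : Subgroup G) ⊓ M) := by
          rw [Ifam, Subgroup.mem_sInf]
          intro B hB
          exact (hZA B hB.1) hzZ
        have h1 := hinv _ inf_le_left ⟨A, hA, hAQ⟩ n
          (fun x hx => (Subgroup.mem_normalizer_iff.mp hn x).mp hx) z hzI
        rw [Ifam, Subgroup.mem_sInf] at h1
        exact h1 A ⟨hA, hAQ⟩
      have h4 : ⁅m, z₁⁆ ∈ W := mem_sectionKernel.mp (hYM hz₁Y) m hm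
      have h5 : m * n * z * (m * n)⁻¹ = ⁅m, z₁⁆ * z₁ := by
        rw [commutatorElement_def, hz₁]; group
      rw [h5]
      exact A.mul_mem (hWZ.trans (hZA A hA) h4) hz₁A
    apply hA2
    apply sup_le
    · rw [Subgroup.normalClosure, Subgroup.closure_le]
      intro y hy
      rw [Group.mem_conjugatesOfSet_iff] at hy
      obtain ⟨a, ha, hy⟩ := hy
      rw [Set.mem_singleton_iff.mp ha] at hy
      obtain ⟨c, rfl⟩ := isConj_iff.mp hy
      exact hconjz c
    · exact hWZ.trans (hZA A hA)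
  -- so Y ≤ Z and Y ≤ W
  have hYZ : Y ≤ Z := le_sInf hYA
  have hYW : Y ≤ W := Subgroup.normal_le_normalCore.mpr hYZ
  exact hzW (hYW hzY)

end Cfsg.Agent.Lib.AxZJ
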