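import Mathlib
import Cfsg.Agent.Lib.StarNil

/-!
# The Broué–Puig product: values at idempotents and composition
-/

set_option autoImplicit false
set_option linter.unusedSectionVars false
set_option linter.unusedVariables false
set_option linter.style.haveILetI false

namespace Cfsg.Agent.Lib.StarAct

open Polynomial IsLocalRing Cfsg Cfsg.Agent.Lib.StarFit Cfsg.Agent.Lib.StarGrp
open Cfsg.Agent.Lib.StarLoc Cfsg.Agent.Lib.BlockLocal Cfsg.Agent.Lib.BlockCover
open Cfsg.Agent.Lib.BlockResidue Cfsg.Agent.Lib.BrauerMap Cfsg.Agent.Lib.BrauerPair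
open Cfsg.Agent.Lib.BrauerSub Cfsg.Agent.Lib.BlockIdem Cfsg.Agent.Lib.CharIntegrality
open Cfsg.Agent.Lib.BlkBasic Cfsg.Agent.Lib.StarBlk Cfsg.Agent.Lib.StarP Cfsg.Agent.Lib.StarTh
open Cfsg.Agent.Lib.StarFit.LocSys Cfsg.Agent.Lib.GenChar Cfsg.Agent.Lib.CharBasic
open Cfsg.Agent.Lib.CharInd Cfsg.Agent.Lib.StarGen Cfsg.Agent.Lib.BrauerConj
open Cfsg.Agent.Lib.BrauerCen Cfsg.Agent.Lib.BrauerMax Cfsg.Agent.Lib.StarII
open Cfsg.Agent.Lib.StarGlob Cfsg.Agent.Lib.BlockOrtho Cfsg.Agent.Lib.StarInner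
open Cfsg.Agent.Lib.StarNorm Cfsg.Agent.Lib.BrauerNil Cfsg.Agent.Lib.BrauerStab
open Cfsg.Agent.Lib.StarNil
open scoped ComplexConjugate

universe u

variable {G : Type u} [Group G] [Fintype G] {p : ℕ} [hp : Fact p.Prime] {M : Ideal AlgInt}
  [hMp : M.IsPrime]

local notation "𝐂[" R "]" => Subgroup.centralizer ((R : Subgroup G) : Set G)
local notation "𝐍[" R "]" => Subgroup.normalizer ((R : Subgroup G) : Set G)
local notation Q "^^" x => Subgroup.map (MulEquiv.toMonoidHom (MulAut.conj (x : G))) (Q : Subgroup G)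

noncomputable local instance fintypeSubAct {A : Type*} [Group A] [Finite A] (K : Subgroup A) : Fintype K :=
  Fintype.ofFinite K

section Abstract

variable {X : Type u} [Group X] [Fintype X]

/-- **The trace lemma on `p`-regular elements**: a class function vanishing on the `p`-regular
elements has trace zero at a `p`-regular element times an idempotent commuting with it. -/
theorem sum_idem_mul_eq_zero (hM : IsPModular p M) {a : X → ℂ} (hloc : ∀ t, MemLocalRing M (a t))
    (hidem : conv a a = a) {s : X} (hs : ¬ p ∣ orderOf s) (ha : ∀ t, a (s⁻¹ * t * s) = a t) {f : X → ℂ}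
    (hf : IsClassFunction X f) (hreg : ∀ g, ¬ p ∣ orderOf g → f g = 0) :
    ∑ k, a k * f (s * k) = 0 := by
  classical
  have hpp : p.Prime := hp.out
  have hX : (Nat.card X : ℂ) ≠ 0 := by exact_mod_cast Nat.card_pos.ne'
  have hzero : ∀ g : X, p ∣ orderOf g → ∑ x : X, a (s⁻¹ * x * g * x⁻¹) = 0 := by
    intro g hg
    refine Cfsg.Agent.Lib.BlkOrth.trace_lemma hM a hloc hidem s g ha ∅ (fun x => by simp) ?_
      (fun u hu => absurd hu (Set.notMem_empty u))
    intro x _ k hk
    by_contra hpk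
    have hk0 : k ≠ 0 := by
      rintro rfl
      exact hpk (dvd_zero p)
    have h3 : x * g ^ k * x⁻¹ = s ^ k := by
      have h4 : x * g ^ k = s ^ k * x := by
        calc x * g ^ k = s ^ k * ((s ^ k)⁻¹ * x * g ^ k) := by group
          _ = s ^ k * x := by rw [hk]
      rw [h4]
      group
    have h5 : orderOf (g ^ k) = orderOf (s ^ k) := by
      rw [← h3]
      have := (MulAut.conj x).orderOf_eq (g ^ k)
      simpa using this.symm
    have h6 : p ∣ orderOf (g ^ k) := by
      have h7 := orderOf_pow' g hk0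
      have h8 : orderOf g = orderOf (g ^ k) * (orderOf g).gcd k := by
        rw [h7]
        exact (Nat.div_mul_cancel (Nat.gcd_dvd_left _ _)).symm
      rw [h8] at hg
      rcases (hpp.dvd_mul).1 hg with h9 | h9
      · exact h9
      · exact absurd (h9.trans (Nat.gcd_dvd_right _ _)) hpk
    rw [h5] at h6
    refine hs (h6.trans (orderOf_dvd_of_pow_eq_one ?_))
    rw [← pow_mul, mul_comm, pow_mul, pow_orderOf_eq_one, one_pow]
  have h1 : ∑ g : X, f g * ∑ x : X, a (s⁻¹ * x * g * x⁻¹) = 0 := by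
    refine Finset.sum_eq_zero fun g _ => ?_
    by_cases hg : p ∣ orderOf g
    · rw [hzero g hg, mul_zero]
    · rw [hreg g hg, zero_mul]
  simp_rw [Finset.mul_sum] at h1
  rw [Finset.sum_comm] at h1
  have h2 : ∀ x : X, ∑ g : X, f g * a (s⁻¹ * x * g * x⁻¹) = ∑ k : X, a k * f (s * k) := by
    intro x
    let E : X ≃ X := { toFun := fun g => s⁻¹ * x * g * x⁻¹
                       invFun := fun k => x⁻¹ * (s * k) * x
                       left_inv := fun g => by group
                       right_inv := fun k => by group }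
    refine Fintype.sum_equiv E _ _ fun g => ?_
    show _ = a (s⁻¹ * x * g * x⁻¹) * f (s * (s⁻¹ * x * g * x⁻¹))
    have h3 : s * (s⁻¹ * x * g * x⁻¹) = x * g * x⁻¹ := by group
    rw [h3, hf g x]
    ring
  simp_rw [h2] at h1
  rw [Finset.sum_const, Finset.card_univ, ← Nat.card_eq_fintype_card, nsmul_eq_mul] at h1
  exact (mul_eq_zero.1 h1).resolve_left hX

/-- The block projection commutes with restriction to the `p`-regular elements. -/
theorem blockProj_pReg_comm (hM : IsPModular p M) {b : Set (IrrCharacter X)} (hb : IsPBlock M b)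
    (ψ : X → ℂ) : blockProj b (pRegularPart p ψ) = pRegularPart p (blockProj b ψ) := by
  funext g
  rw [blockProj_eq_kernel]
  by_cases hg : p ∣ orderOf g
  · rw [pRegularPart_of_sing _ hg]
    have : ∀ y : X, pRegularPart p ψ y *
        ∑ ξ : IrrCharacter X, indB b ξ * ((ξ : X → ℂ) g * conj ((ξ : X → ℂ) y)) = 0 := by
      intro y
      by_cases hy : p ∣ orderOf y
      · rw [pRegularPart_of_sing ψ hy, zero_mul]
      · rw [sum_block_sing_reg hM hb hy hg, mul_zero]
    simp [this]
  · rw [pRegularPart_of_reg _ hg, blockProj_eq_kernel]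
    congr 1
    refine Finset.sum_congr rfl fun y _ => ?_
    by_cases hy : p ∣ orderOf y
    · rw [sum_block_reg_sing hM hb hg hy, mul_zero, mul_zero]
    · rw [pRegularPart_of_reg ψ hy]

/-- Projection of a combination of block projections. -/
theorem blockProj_sum_smul {ι : Type*} [Fintype ι] [DecidableEq ι] (F : ι → Set (IrrCharacter X))
    (hF : ∀ i, IsPBlock M (F i)) (hinj : Function.Injective F) (r : ι → ℂ) (ψ : X → ℂ) (i : ι) :
    blockProj (F i) (∑ j, r j • blockProj (F j) ψ) = r i • blockProj (F i) ψ := by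
  funext g
  show (∑ ξ : IrrCharacter X, indB (F i) ξ * (classInner (∑ j, r j • blockProj (F j) ψ) (ξ : X → ℂ) * (ξ : X → ℂ) g)) =
    r i * (∑ ξ : IrrCharacter X, indB (F i) ξ * (classInner ψ (ξ : X → ℂ) * (ξ : X → ℂ) g))
  rw [Finset.mul_sum]
  refine Finset.sum_congr rfl fun ξ _ => ?_
  rw [classInner_sum_left]
  simp_rw [classInner_smul_left]
  have hc : ∀ j, classInner (blockProj (F j) ψ) (ξ : X → ℂ) = indB (F j) ξ * classInner ψ (ξ : X → ℂ) :=
    fun j => classInner_blockProj _ _ _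
  simp_rw [hc]
  by_cases hξ : ξ ∈ F i
  · rw [indB_of_mem hξ, Finset.sum_eq_single i]
    · rw [indB_of_mem hξ]
      ring
    · intro j _ hj
      have h1 : ξ ∉ F j := by
        intro h2
        rcases eq_or_disjoint_of_isPBlock (hF i) (hF j) with h3 | h3
        · exact hj (hinj h3).symm
        · exact Set.disjoint_left.1 h3 hξ h2
      rw [indB_of_not_mem h1]
      ring
    · intro h
      exact absurd (Finset.mem_univ _) h
  · rw [indB_of_not_mem hξ]
    ring

end Abstract

section Reg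

variable {u : G}

theorem blockProj_isClass {X : Type u} [Group X] [Fintype X] (b : Set (IrrCharacter X)) (ψ : X → ℂ) :
    IsClassFunction X (blockProj b ψ) := by
  intro g t
  show (∑ ξ : IrrCharacter X, indB b ξ * (classInner ψ (ξ : X → ℂ) * (ξ : X → ℂ) (t * g * t⁻¹))) =
    ∑ ξ : IrrCharacter X, indB b ξ * (classInner ψ (ξ : X → ℂ) * (ξ : X → ℂ) g)
  refine Finset.sum_congr rfl fun ξ _ => ?_
  rw [isClassFunction_of_isCharacter (IsIrrCharacter.isCharacter ξ.2) g t]

theorem pp_mul_of_mem (hu : ∃ k : ℕ, orderOf u = p ^ k) (s : 𝐂[Subgroup.zpowers u])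
    (hs : ¬ p ∣ orderOf s) : pp p (u * s) = u := by
  apply pp_eq
  refine Cfsg.Agent.Lib.BlkOrth.pPart_of_mul ?_ hu ?_
  · exact (Subgroup.mem_centralizer_iff.1 s.2) u (Subgroup.mem_zpowers u)
  · rwa [Subgroup.orderOf_coe]

/-- **The value of a twisted function on a block component.** -/
theorem chiT_TT_eB (hM : IsPModular p M) {Λ : G → MonoidAlgebra (localSubring M) G → ℂ}
    (hΛ : ∀ u t x, Λ (t * u * t⁻¹) (cj t x) = Λ u x) {χ : G → ℂ} (hχ : IsClassFunction G χ)
    (hu : ∃ k : ℕ, orderOf u = p ^ k) (b : BlockT M 𝐂[Subgroup.zpowers u]) (s : 𝐂[Subgroup.zpowers u])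
    (hs : ¬ p ∣ orderOf s) :
    chiT (TT p M Λ χ) (ofG (localSubring M) (u * s) * eB _ b) =
      Λ u (eB _ b) * chiT χ (ofG (localSubring M) (u * s) * eB _ b) := by
  classical
  have hθ := TT_isClass (p := p) hM hχ hΛ
  rw [chiT_eB_eq u _ hθ, chiT_eB_eq u χ hχ]
  set ψ := shiftF u χ with hψ
  set ψ' := shiftF u (TT p M Λ χ) with hψ'
  let r : BlockT M 𝐂[Subgroup.zpowers u] → ℂ := fun c => Λ u (eB _ c)
  have key1 : pRegularPart p ψ' = pRegularPart p (∑ c : BlockT M 𝐂[Subgroup.zpowers u], r c • blockProj c.1 ψ) := by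
    funext t
    by_cases ht : p ∣ orderOf t
    · rw [pRegularPart_of_sing _ ht, pRegularPart_of_sing _ ht]
    · rw [pRegularPart_of_reg _ ht, pRegularPart_of_reg _ ht, Finset.sum_apply]
      show TT p M Λ χ (u * t) = _
      rw [TT_of_pp _ _ (pp_mul_of_mem hu t ht)]
      refine Finset.sum_congr rfl fun c _ => ?_
      rw [chiT_eB_eq u χ hχ]
      rfl
  have h1 := congrFun (blockProj_pReg_comm (p := p) hM b.2 ψ') s
  rw [key1, blockProj_pReg_comm (p := p) hM b.2, pRegularPart_of_reg _ hs,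
    pRegularPart_of_reg _ hs] at h1
  have h2 := blockProj_sum_smul (M := M) (fun c : BlockT M 𝐂[Subgroup.zpowers u] => c.1) (fun c => c.2)
    Subtype.val_injective r ψ b
  rw [← h1]
  rw [h2]
  rfl

/-- **Composition of twists.** -/
theorem TT_TT (hM : IsPModular p M) {Λ : G → MonoidAlgebra (localSubring M) G → ℂ}
    (hΛ : ∀ u t x, Λ (t * u * t⁻¹) (cj t x) = Λ u x) (Λ' : G → MonoidAlgebra (localSubring M) G → ℂ)
    {χ : G → ℂ} (hχ : IsClassFunction G χ) :
    TT p M Λ' (TT p M Λ χ) = TT p M (fun u x => Λ' u x * Λ u x) χ := by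
  funext v
  obtain ⟨y, hy, hc, hk, hyp⟩ := pp_spec (p := p) v
  have hyC : y ∈ 𝐂[Subgroup.zpowers (pp p v)] := by
    rw [Cfsg.Agent.Lib.BlockSecond.centralizer_zpowers_eq, Subgroup.mem_centralizer_singleton_iff]
    exact hc.eq.symm
  unfold TT
  refine Finset.sum_congr rfl fun b _ => ?_
  have h1 := chiT_TT_eB hM hΛ hχ hk b ⟨y, hyC⟩ (by rwa [Subgroup.orderOf_mk])
  have h2 : pp p v * ((⟨y, hyC⟩ : 𝐂[Subgroup.zpowers (pp p v)]) : G) = v := hy
  rw [h2] at h1
  unfold TT at h1
  rw [h1]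
  ring

/-- The elements supported on a subgroup. -/
noncomputable def suppS (M : Ideal AlgInt) [M.IsPrime] (K : Subgroup G) :
    Subalgebra (localSubring M) (MonoidAlgebra (localSubring M) G) where
  carrier := {a | ∀ k, k ∉ K → coeF a k = 0}
  mul_mem' := by
    intro a b ha hb k hk
    rw [coeF_mul]
    unfold conv
    refine Finset.sum_eq_zero fun x _ => ?_
    by_cases hx : x ∈ K
    · have h1 : x⁻¹ * k ∉ K := by
        intro h2
        apply hk
        have := K.mul_mem hx h2
        simpa using this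
      rw [hb _ h1, mul_zero]
    · rw [ha _ hx, zero_mul]
  add_mem' := by
    intro a b ha hb k hk
    have h1 := ha k hk
    have h2 := hb k hk
    simp only [coeF_apply] at h1 h2 ⊢
    rw [MonoidAlgebra.coeff_add, Finsupp.add_apply]
    push_cast
    rw [h1, h2, add_zero]
  algebraMap_mem' := by
    intro r k hk
    classical
    have h1 : algebraMap (localSubring M) (MonoidAlgebra (localSubring M) G) r = MonoidAlgebra.single 1 r := rfl
    rw [h1, coeF_apply, MonoidAlgebra.coeff_single, Finsupp.single_apply, if_neg]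
    · rfl
    · intro h
      exact hk (h ▸ K.one_mem)

theorem mem_suppS {K : Subgroup G} {a : MonoidAlgebra (localSubring M) G} :
    a ∈ suppS M K ↔ ∀ k, k ∉ K → coeF a k = 0 := Iff.rfl

theorem coeF_eq_ext0 {K : Subgroup G} {a : MonoidAlgebra (localSubring M) G} (ha : a ∈ suppS M K) :
    coeF a = ext0 K (resC K (coeF a)) :=
  (ext0_resC K ha).symm

/-- An element supported on `K` commutes with the centre elements. -/
theorem commute_of_supp {K : Subgroup G} {a e : MonoidAlgebra (localSubring M) G} (ha : a ∈ suppS M K)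
    (he : e ∈ cen (localSubring M) (K : Set G)) : a * e = e * a := by
  classical
  rw [mem_cen] at he
  rw [BlockResidue.eq_sum_single a, Finset.sum_mul, Finset.mul_sum]
  refine Finset.sum_congr rfl fun g _ => ?_
  by_cases hg : g ∈ K
  · rw [BlockResidue.single_eq_smul]
    rw [smul_mul_assoc, mul_smul_comm]
    congr 1
    exact he g hg
  · have h0 : a.coeff g = 0 := Subtype.ext (ha g hg)
    rw [h0]
    simp

/-- The truncation of an element to a subgroup. -/
noncomputable def trunc (K : Subgroup G) (q : MonoidAlgebra (localSubring M) G) :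
    MonoidAlgebra (localSubring M) G :=
  toR (ext0 K (resC K (coeF q))) (memLocalRing_ext0 K (fun g => coeF_local q (g : G)))

theorem coeF_trunc (K : Subgroup G) (q : MonoidAlgebra (localSubring M) G) :
    coeF (trunc K q) = ext0 K (resC K (coeF q)) := rfl

theorem trunc_mem_suppS (K : Subgroup G) (q : MonoidAlgebra (localSubring M) G) : trunc K q ∈ suppS M K := by
  intro k hk
  rw [coeF_trunc, ext0_of_not_mem K _ hk]

theorem coeF_trunc_of_mem {K : Subgroup G} (q : MonoidAlgebra (localSubring M) G) {k : G} (hk : k ∈ K) :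
    coeF (trunc K q) k = coeF q k := by
  rw [coeF_trunc, ext0_of_mem K _ hk]
  rfl

/-- The value of a class function at a group element times an idempotent of the block `b`. -/
theorem chiT_formula (b : BlockT M 𝐂[Subgroup.zpowers u])
    {j : MonoidAlgebra (localSubring M) G} (hjS : j ∈ suppS M 𝐂[Subgroup.zpowers u])
    (hjb : j * eB 𝐂[Subgroup.zpowers u] b = j) {φ : G → ℂ} (hφ : IsClassFunction G φ)
    (s : 𝐂[Subgroup.zpowers u]) :
    chiT φ (ofG (localSubring M) (u * s) * j) =
      ∑ m : 𝐂[Subgroup.zpowers u], resC 𝐂[Subgroup.zpowers u] (coeF j) m *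
        blockProj b.1 (shiftF u φ) (s * m) := by
  classical
  have hc : coeF j = ext0 𝐂[Subgroup.zpowers u] (conv (resC 𝐂[Subgroup.zpowers u] (coeF j)) (blockCoeff b.1)) := by
    conv_lhs => rw [← hjb, coeF_mul, coeF_eq_ext0 hjS, coeF_eB, subgroupBlockCoeff_eq_ext0, conv_ext0]
  calc chiT φ (ofG (localSubring M) (u * s) * j)
      = ∑ k, coeF j k * φ (u * s * k) := chiT_ofG_mul _ _ _
    _ = ∑ k, ext0 𝐂[Subgroup.zpowers u] (conv (resC 𝐂[Subgroup.zpowers u] (coeF j)) (blockCoeff b.1)) k * φ (u * s * k) := by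
        rw [← hc]
    _ = ∑ k : 𝐂[Subgroup.zpowers u], conv (resC 𝐂[Subgroup.zpowers u] (coeF j)) (blockCoeff b.1) k * φ (u * s * k) :=
        sum_ext0_mul _ _ _
    _ = ∑ m : 𝐂[Subgroup.zpowers u], ∑ k : 𝐂[Subgroup.zpowers u],
          resC 𝐂[Subgroup.zpowers u] (coeF j) m * blockCoeff b.1 (m⁻¹ * k) * φ (u * s * k) := by
        unfold conv
        simp_rw [Finset.sum_mul]
        rw [Finset.sum_comm]
    _ = _ := by
        refine Finset.sum_congr rfl fun m _ => ?_
        rw [← sum_blockCoeff_mul b.1 (shiftF_isClass u hφ) (s * m), Finset.mul_sum]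
        refine Fintype.sum_equiv (Equiv.mulLeft m⁻¹) _ _ fun k => ?_
        simp only [Equiv.coe_mulLeft]
        unfold shiftF
        have e : (((s * m * (m⁻¹ * k) : 𝐂[Subgroup.zpowers u])) : G) = s * k := by
          have : s * m * (m⁻¹ * k) = s * k := by group
          rw [this]
          rfl
        rw [e, mul_assoc, mul_assoc u]

/-- **Character values at idempotents in terms of block components.** -/
theorem chiT_eq_of_reg (hM : IsPModular p M) {θ χ : G → ℂ} (hθ : IsClassFunction G θ)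
    (hχ : IsClassFunction G χ) {v : G} (hv : IsPPart p v u) (b : BlockT M 𝐂[Subgroup.zpowers u]) (c : ℂ)
    (h : ∀ s : 𝐂[Subgroup.zpowers u], ¬ p ∣ orderOf s →
      chiT θ (ofG (localSubring M) (u * s) * eB _ b) = c * chiT χ (ofG (localSubring M) (u * s) * eB _ b))
    {q : MonoidAlgebra (localSubring M) G} (hq : q ∈ SV M v) (hqq : q * q = q)
    (hqb : br (Subgroup.zpowers u) q * bb (Subgroup.zpowers u) b = br (Subgroup.zpowers u) q) :
    chiT θ (ofG (localSubring M) v * q) = c * chiT χ (ofG (localSubring M) v * q) := by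
  classical
  have hψ := homV hM hv
  have hvX : v ∈ 𝐂[Subgroup.zpowers u] := by
    rw [Cfsg.Agent.Lib.BlockSecond.centralizer_zpowers_eq, Subgroup.mem_centralizer_singleton_iff]
    exact (Cfsg.Agent.Lib.BlkOrth.pPart_commute hp.out hv).eq
  have hvXzp : ∀ y ∈ Subgroup.zpowers v, y ∈ 𝐂[Subgroup.zpowers u] := by
    intro y hy
    exact (Subgroup.zpowers_le.2 hvX) hy
  let S : Subalgebra (localSubring M) (MonoidAlgebra (localSubring M) G) := SV M v ⊓ suppS M 𝐂[Subgroup.zpowers u]
  have hψS : HomOn (LL M G) S (br (Subgroup.zpowers u) : MonoidAlgebra (localSubring M) G →+ _) :=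
    ⟨fun a ha b hb => hψ.mul a ha.1 b hb.1, hψ.one, fun a ha => hψ.ker a ha.1⟩
  -- the truncation
  have hx₀S : trunc 𝐂[Subgroup.zpowers u] q ∈ S := by
    refine ⟨?_, trunc_mem_suppS _ q⟩
    show trunc 𝐂[Subgroup.zpowers u] q ∈ cen (localSubring M) ((Subgroup.zpowers v : Subgroup G) : Set G)
    rw [mem_cen_coeff]
    intro e he g
    have he' := hvXzp e he
    have hq' := mem_cen_coeff.1 hq e he g
    apply Subtype.ext
    show coeF _ _ = coeF _ _
    by_cases hg : g ∈ 𝐂[Subgroup.zpowers u]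
    · have hg' : e⁻¹ * g * e ∈ 𝐂[Subgroup.zpowers u] :=
        Subgroup.mul_mem _ (Subgroup.mul_mem _ (Subgroup.inv_mem _ he') hg) he'
      rw [coeF_trunc_of_mem q hg, coeF_trunc_of_mem q hg']
      simp only [coeF_apply]
      rw [hq']
    · have hg' : e⁻¹ * g * e ∉ 𝐂[Subgroup.zpowers u] := by
        intro h1
        apply hg
        have : g = e * (e⁻¹ * g * e) * e⁻¹ := by group
        rw [this]
        exact Subgroup.mul_mem _ (Subgroup.mul_mem _ he' h1) (Subgroup.inv_mem _ he')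
      rw [trunc_mem_suppS _ q _ hg, trunc_mem_suppS _ q _ hg']
  have hbx₀ : br (Subgroup.zpowers u) (trunc 𝐂[Subgroup.zpowers u] q) = br (Subgroup.zpowers u) q := by
    apply ext_coeff
    intro g
    by_cases hg : g ∈ 𝐂[Subgroup.zpowers u]
    · rw [br_coeff_mem _ _ hg, br_coeff_mem _ _ hg]
      congr 1
      apply Subtype.ext
      exact coeF_trunc_of_mem q hg
    · rw [br_coeff_not_mem _ _ hg, br_coeff_not_mem _ _ hg]
  have heS : eB 𝐂[Subgroup.zpowers u] b ∈ S := by
    refine ⟨cen_anti (fun y hy => hvXzp y hy) (eB_mem_cen _ b), ?_⟩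
    intro k hk
    rw [coeF_eB, subgroupBlockCoeff_eq_ext0, ext0_of_not_mem _ _ hk]
  have hcomm : trunc 𝐂[Subgroup.zpowers u] q * eB 𝐂[Subgroup.zpowers u] b =
      eB 𝐂[Subgroup.zpowers u] b * trunc 𝐂[Subgroup.zpowers u] q :=
    commute_of_supp (trunc_mem_suppS _ q) (eB_mem_cen _ b)
  have hyS : trunc 𝐂[Subgroup.zpowers u] q * eB 𝐂[Subgroup.zpowers u] b ∈ S := S.mul_mem hx₀S heS
  have hbr : br (Subgroup.zpowers u) (trunc 𝐂[Subgroup.zpowers u] q * eB 𝐂[Subgroup.zpowers u] b) =
      br (Subgroup.zpowers u) q := by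
    rw [hψS.mul _ hx₀S _ heS, hbx₀]
    exact hqb
  have hε : br (Subgroup.zpowers u) q * br (Subgroup.zpowers u) q = br (Subgroup.zpowers u) q := by
    rw [← hψ.mul _ hq _ hq, hqq]
  obtain ⟨j, hjS, hjj, hej, hje, hbj⟩ := exists_lift_corner hψS heS (eB_idem _ b) hyS
    (by rw [← mul_assoc, ← hcomm, mul_assoc, eB_idem])
    (by rw [mul_assoc, eB_idem])
    (by rw [hbr, hε])
  rw [hbr] at hbj
  have h1 : ∀ {φ : G → ℂ}, IsClassFunction G φ →
      chiT φ (ofG (localSubring M) v * q) = chiT φ (ofG (localSubring M) v * j) := by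
    intro φ hφ
    rw [← Th_eq hM hφ hv hq hqq, ← Th_eq hM hφ hv hjS.1 hjj, hbj]
  rw [h1 hθ, h1 hχ]
  obtain ⟨y, hy, hc, -, hyp⟩ := id hv
  have hyC : y ∈ 𝐂[Subgroup.zpowers u] := by
    rw [Cfsg.Agent.Lib.BlockSecond.centralizer_zpowers_eq, Subgroup.mem_centralizer_singleton_iff]
    exact hc.eq.symm
  set s : 𝐂[Subgroup.zpowers u] := ⟨y, hyC⟩ with hs
  have hvs : v = u * (s : G) := hy.symm
  rw [hvs, chiT_formula b hjS.2 hje hθ, chiT_formula b hjS.2 hje hχ, Finset.mul_sum, ← sub_eq_zero,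
    ← Finset.sum_sub_distrib]
  -- the function
  set f : 𝐂[Subgroup.zpowers u] → ℂ := blockProj b.1 (shiftF u θ) - c • blockProj b.1 (shiftF u χ) with hf
  have hfcl : IsClassFunction 𝐂[Subgroup.zpowers u] f := by
    intro g t
    simp only [hf, Pi.sub_apply, Pi.smul_apply, smul_eq_mul]
    rw [blockProj_isClass, blockProj_isClass]
  have hfreg : ∀ g, ¬ p ∣ orderOf g → f g = 0 := by
    intro g hg
    simp only [hf, Pi.sub_apply, Pi.smul_apply, smul_eq_mul]
    have := h g hg
    rw [chiT_eB_eq u θ hθ, chiT_eB_eq u χ hχ] at this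
    rw [this, sub_self]
  have hconv : conv (resC 𝐂[Subgroup.zpowers u] (coeF j)) (resC 𝐂[Subgroup.zpowers u] (coeF j)) =
      resC 𝐂[Subgroup.zpowers u] (coeF j) := by
    have h2 : coeF j = ext0 𝐂[Subgroup.zpowers u] (conv (resC 𝐂[Subgroup.zpowers u] (coeF j))
        (resC 𝐂[Subgroup.zpowers u] (coeF j))) := by
      conv_lhs => rw [← hjj, coeF_mul, coeF_eq_ext0 hjS.2, conv_ext0]
    funext g
    have h3 := congrFun h2 (g : G)
    rw [ext0_coe] at h3
    exact h3.symm
  have hs_reg : ¬ p ∣ orderOf s := by rwa [Subgroup.orderOf_mk]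
  have hainv : ∀ t : 𝐂[Subgroup.zpowers u], resC 𝐂[Subgroup.zpowers u] (coeF j) (s⁻¹ * t * s) =
      resC 𝐂[Subgroup.zpowers u] (coeF j) t := by
    intro t
    simp only [resC_apply]
    have h4 := mem_cen_coeff.1 hjS.1 v (Subgroup.mem_zpowers v) (t : G)
    have hut : ((s⁻¹ * t * s : 𝐂[Subgroup.zpowers u]) : G) = v⁻¹ * (t : G) * v := by
      have hc1 : Commute u (t : G) := (Subgroup.mem_centralizer_iff.1 t.2) u (Subgroup.mem_zpowers u)
      have e0 : ((s⁻¹ * t * s : 𝐂[Subgroup.zpowers u]) : G) = (s : G)⁻¹ * (t : G) * (s : G) := rfl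
      rw [e0, hvs]
      have e1 : (u * (s : G))⁻¹ * (t : G) * (u * (s : G)) = (s : G)⁻¹ * (u⁻¹ * ((t : G) * u)) * (s : G) := by group
      rw [e1, ← hc1.eq]
      group
    rw [hut]
    simp only [coeF_apply]
    rw [h4]
  have h5 := sum_idem_mul_eq_zero hM (a := resC 𝐂[Subgroup.zpowers u] (coeF j))
    (fun t => coeF_local j (t : G)) hconv hs_reg hainv hfcl hfreg
  rw [← h5]
  refine Finset.sum_congr rfl fun m _ => ?_
  simp only [hf, Pi.sub_apply, Pi.smul_apply, smul_eq_mul]
  ring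

/-- **The value of a twisted function at an idempotent.** -/
theorem chiT_TT_idem (hM : IsPModular p M) {Λ : G → MonoidAlgebra (localSubring M) G → ℂ}
    (hΛ : ∀ u t x, Λ (t * u * t⁻¹) (cj t x) = Λ u x) {χ : G → ℂ} (hχ : IsClassFunction G χ) {v : G}
    (hv : IsPPart p v u) (b : BlockT M 𝐂[Subgroup.zpowers u]) {q : MonoidAlgebra (localSubring M) G}
    (hq : q ∈ SV M v) (hqq : q * q = q)
    (hqb : br (Subgroup.zpowers u) q * bb (Subgroup.zpowers u) b = br (Subgroup.zpowers u) q) :
    chiT (TT p M Λ χ) (ofG (localSubring M) v * q) =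
      Λ u (eB _ b) * chiT χ (ofG (localSubring M) v * q) := by
  obtain ⟨y, hy, hc, hk, hyp⟩ := id hv
  exact chiT_eq_of_reg hM (TT_isClass hM hχ hΛ) hχ hv b _
    (fun s hs => chiT_TT_eB hM hΛ hχ hk b s hs) hq hqq hqb

end Reg

end Cfsg.Agent.Lib.StarAct
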