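import Mathlib
import Cfsg.Agent.Lib.StarNil
import Cfsg.Agent.Lib.StarAct

/-!
# Character values at nilpotent elements, idempotents and local corners
-/

set_option autoImplicit false
set_option linter.unusedSectionVars false
set_option linter.unusedVariables false
set_option linter.style.haveILetI false

namespace Cfsg.Agent.Lib.BFNorm

open Polynomial IsLocalRing Cfsg Cfsg.Agent.Lib.StarFit Cfsg.Agent.Lib.StarGrp
open Cfsg.Agent.Lib.StarLoc Cfsg.Agent.Lib.BlockLocal Cfsg.Agent.Lib.BlockCover
open Cfsg.Agent.Lib.BlockResidue Cfsg.Agent.Lib.BrauerMap Cfsg.Agent.Lib.BrauerPair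
open Cfsg.Agent.Lib.BrauerSub Cfsg.Agent.Lib.BlockIdem Cfsg.Agent.Lib.CharIntegrality
open Cfsg.Agent.Lib.BlkBasic Cfsg.Agent.Lib.StarBlk Cfsg.Agent.Lib.StarP Cfsg.Agent.Lib.StarTh
open Cfsg.Agent.Lib.StarFit.LocSys Cfsg.Agent.Lib.GenChar Cfsg.Agent.Lib.CharBasic
open Cfsg.Agent.Lib.CharInd Cfsg.Agent.Lib.StarGen
open scoped ComplexConjugate

universe u

variable {X : Type u} [Group X] [Fintype X] {p : ℕ} [hp : Fact p.Prime] {M : Ideal AlgInt}
  [hMp : M.IsPrime]

section Rep

variable {V : Type*} [AddCommGroup V] [Module ℂ V] (ρ : Representation ℂ X V)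

theorem coeF_add (x y : MonoidAlgebra (localSubring M) X) (k : X) :
    coeF (x + y) k = coeF x k + coeF y k := by
  simp [coeF_apply]

theorem coeF_smul (a : localSubring M) (x : MonoidAlgebra (localSubring M) X) (k : X) :
    coeF (a • x) k = (a : ℂ) * coeF x k := by
  simp [coeF_apply]

theorem repExt_add (x y : MonoidAlgebra (localSubring M) X) :
    repExt ρ (x + y) = repExt ρ x + repExt ρ y := by
  unfold repExt
  rw [← Finset.sum_add_distrib]
  refine Finset.sum_congr rfl fun k _ => ?_
  rw [coeF_add, add_smul]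

theorem repExt_smul (a : localSubring M) (x : MonoidAlgebra (localSubring M) X) :
    repExt ρ (a • x) = (a : ℂ) • repExt ρ x := by
  unfold repExt
  rw [Finset.smul_sum]
  refine Finset.sum_congr rfl fun k _ => ?_
  rw [coeF_smul, smul_smul]

theorem repExt_pow (x : MonoidAlgebra (localSubring M) X) (n : ℕ) :
    repExt ρ (x ^ n) = repExt ρ x ^ n := by
  induction n with
  | zero => simp [repExt_one]
  | succ n ih => rw [pow_succ, pow_succ, repExt_mul, ih]

theorem repExt_aeval_apply {x : MonoidAlgebra (localSubring M) X} {ν : ℂ} {w : V}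
    (h : repExt ρ x w = ν • w) (f : (localSubring M)[X]) :
    repExt ρ (aeval x f) w = (eval₂ (localSubring M).subtype ν f) • w := by
  induction f using Polynomial.induction_on' with
  | add f g hf hg =>
    rw [map_add, repExt_add, LinearMap.add_apply, hf, hg, eval₂_add, add_smul]
  | monomial n a =>
    rw [aeval_monomial, ← Algebra.smul_def, repExt_smul, repExt_pow, eval₂_monomial]
    have h1 : ∀ k : ℕ, (repExt ρ x ^ k) w = ν ^ k • w := by
      intro k
      induction k with
      | zero => simp
      | succ k ih => rw [pow_succ', Module.End.mul_apply, ih, map_smul, h, smul_smul, pow_succ]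
    rw [LinearMap.smul_apply, h1, smul_smul]
    rfl

/-- The eigenvalues lie in the local ring. -/
theorem eigen_mem {x : MonoidAlgebra (localSubring M) X} {ν : ℂ} {w : V} (hw : w ≠ 0)
    (h : repExt ρ x w = ν • w) : MemLocalRing M ν := by
  obtain ⟨n, r, hr⟩ := (LL M X).roots x
  have hm : (∏ j, (Polynomial.X - C (r j))).Monic := monic_prod_of_monic _ _ fun j _ => monic_X_sub_C _
  refine memLocalRing_of_root hm ?_
  have h1 := repExt_aeval_apply ρ h (∏ j, (Polynomial.X - C (r j)))
  rw [hr] at h1
  have h2 : repExt ρ (0 : MonoidAlgebra (localSubring M) X) = 0 := by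
    unfold repExt
    simp [coeF_apply]
  rw [h2] at h1
  have h3 := (smul_eq_zero.1 h1.symm).resolve_right hw
  exact h3

/-- The eigenvalues of an element nilpotent modulo the maximal ideal lie in the maximal ideal. -/
theorem eigen_mem_ideal {x : MonoidAlgebra (localSubring M) X} {N : ℕ} (hN : red (x ^ (N + 1)) = 0)
    {ν : ℂ} {w : V} (hw : w ≠ 0) (h : repExt ρ x w = ν • w) : MemLocalIdeal M ν := by
  by_contra hν
  have hνR : MemLocalRing M ν := eigen_mem ρ hw h
  have hνN : ¬ MemLocalIdeal M (ν ^ (N + 1)) := by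
    intro h1
    exact hν ((memLocalIdeal_pow_iff hνR (Nat.succ_ne_zero N)).1 h1)
  set s : ℂ := ν ^ (N + 1) with hs
  have hsR : MemLocalRing M s := memLocalRing_pow hνR _
  set a : localSubring M := ⟨s⁻¹, memLocalRing_inv hsR hνN⟩ with ha
  set z : MonoidAlgebra (localSubring M) X := -(a • x ^ (N + 1)) with hz
  have hrz : (red z) = 0 := by
    rw [hz, map_neg, neg_eq_zero, red_eq_zero_iff]
    intro g
    have h1 := (red_eq_zero_iff.1 hN) g
    have h2 : (a • x ^ (N + 1)).coeff g = a * (x ^ (N + 1)).coeff g := by simp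
    rw [h2]
    exact Ideal.mul_mem_left _ a h1
  obtain ⟨y, -, hy⟩ := (LL M X).inv z hrz
  have h1 : repExt ρ (x ^ (N + 1)) w = s • w := by
    rw [repExt_pow]
    have h1 : ∀ k : ℕ, (repExt ρ x ^ k) w = ν ^ k • w := by
      intro k
      induction k with
      | zero => simp
      | succ k ih => rw [pow_succ', Module.End.mul_apply, ih, map_smul, h, smul_smul, pow_succ]
    exact h1 _
  have hs0 : s ≠ 0 := by
    intro h0
    apply hνN
    rw [h0]
    exact memLocalIdeal_zero
  have h2 : repExt ρ (1 + z) w = 0 := by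
    have h3 : repExt ρ z = - ((a : ℂ) • repExt ρ (x ^ (N + 1))) := by
      rw [hz, ← repExt_smul]
      have h4 : repExt ρ (-(a • x ^ (N + 1))) + repExt ρ (a • x ^ (N + 1)) = 0 := by
        rw [← repExt_add, neg_add_cancel]
        unfold repExt
        simp [coeF_apply]
      exact eq_neg_of_add_eq_zero_left h4
    rw [repExt_add, repExt_one, LinearMap.add_apply, h3, LinearMap.neg_apply, LinearMap.smul_apply, h1,
      smul_smul]
    have h5 : (a : ℂ) = s⁻¹ := rfl
    rw [h5, inv_mul_cancel₀ hs0, one_smul]
    simp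
  have h6 : repExt ρ (y * (1 + z)) w = w := by
    rw [hy, repExt_one]
    rfl
  rw [repExt_mul, Module.End.mul_apply, h2, map_zero] at h6
  exact hw h6.symm

end Rep

/-- **The values of a character at elements nilpotent modulo the maximal ideal.** -/
theorem chiT_mem_of_nil {χ : X → ℂ} (hχ : IsCharacter X χ) {x : MonoidAlgebra (localSubring M) X} {N : ℕ}
    (hN : red (x ^ (N + 1)) = 0) : MemLocalIdeal M (chiT χ x) := by
  obtain ⟨n, ρ, rfl⟩ := hχ
  rw [← trace_repExt]
  set A := repExt ρ x with hA
  rw [Module.End.trace_eq_sum_roots_charpoly_of_splits (IsAlgClosed.splits _)]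
  refine Multiset.sum_induction (MemLocalIdeal M) _ (fun a b ha hb => memLocalIdeal_add ha hb) memLocalIdeal_zero ?_
  intro ν hν
  have h3 : Module.End.HasEigenvalue A ν := by
    rw [Module.End.hasEigenvalue_iff_isRoot_charpoly]
    exact (Polynomial.mem_roots'.1 hν).2
  obtain ⟨w, hw⟩ := h3.exists_hasEigenvector
  exact eigen_mem_ideal ρ hN hw.2 hw.apply_eq_smul


section AbsCorner

variable {R A B : Type*} [CommRing R] [IsLocalRing R] [Ring A] [Algebra R A] [Ring B] (L : LocSys R A B)
  {S : Subalgebra R A} {i : A}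

include L in
/-- In a local corner every element is a scalar plus an element nilpotent modulo the maximal ideal. -/
theorem exists_nil_sub_abs (h : PrimIn S i) {y : A} (hy : y ∈ S) : ∃ r : R, L.Nil i (y - algebraMap _ _ r) := by
  classical
  by_contra hcon
  push Not at hcon
  have hl : ∀ r : R, LInv S i (y - algebraMap _ _ r) := fun r =>
    (nil_or_linv L h (S.sub_mem hy (S.algebraMap_mem r))).resolve_left (hcon r)
  choose w hwS h1 h2 using hl
  set y' := i * y * i with hy'
  obtain ⟨n, r, hr⟩ := L.roots y'
  have hii := h.idem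
  have hiy : i * y' = y' := by
    rw [hy', ← mul_assoc, ← mul_assoc, hii]
  have key : ∀ J : Finset (Fin n), i * aeval y' (∏ j ∈ J, (Polynomial.X - C (r j))) = 0 → i = 0 := by
    intro J
    induction J using Finset.induction_on with
    | empty =>
      intro h0
      simpa using h0
    | insert a J ha ih =>
      intro h0
      apply ih
      rw [Finset.prod_insert ha, map_mul, map_sub, aeval_X, aeval_C] at h0
      set Q := aeval y' (∏ j ∈ J, (Polynomial.X - C (r j))) with hQ
      have e1 : i * (y - algebraMap _ _ (r a)) * i = i * (y' - algebraMap _ _ (r a)) := by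
        rw [mul_sub, mul_sub, sub_mul, hiy, hy']
        congr 1
        rw [← Algebra.commutes, mul_assoc, hii]
      calc i * Q = (w (r a) * (i * (y - algebraMap _ _ (r a)) * i)) * Q := by rw [h2]
        _ = w (r a) * (i * (y' - algebraMap _ _ (r a)) * Q) := by rw [e1]; simp only [mul_assoc]
        _ = 0 := by
          rw [mul_assoc i, h0, mul_zero]
  have h0 := key Finset.univ (by rw [hr, mul_zero])
  exact h.ne h0

end AbsCorner

section Corner

variable {S : Subalgebra (localSubring M) (MonoidAlgebra (localSubring M) X)}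
  {i : MonoidAlgebra (localSubring M) X}

theorem chiT_smul (χ : X → ℂ) (a : localSubring M) (x : MonoidAlgebra (localSubring M) X) :
    chiT χ (a • x) = (a : ℂ) * chiT χ x := by
  rw [chiT_apply, chiT_apply, Finset.mul_sum]
  refine Finset.sum_congr rfl fun k _ => ?_
  rw [coeF_smul, mul_assoc]

/-- In a local corner every element is a scalar plus an element nilpotent modulo the maximal ideal. -/
theorem exists_nil_sub (h : PrimIn S i) {y : MonoidAlgebra (localSubring M) X} (hy : y ∈ S) :
    ∃ r : localSubring M, (LL M X).Nil i (y - algebraMap _ _ r) :=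
  exists_nil_sub_abs (LL M X) h hy

/-- The value at an element of a local corner is a multiple of the value at the idempotent,
modulo the maximal ideal. -/
theorem chiT_corner {χ : X → ℂ} (hχ : IsCharacter X χ) (h : PrimIn S i)
    {y : MonoidAlgebra (localSubring M) X} (hy : y ∈ S) :
    ∃ r : localSubring M, MemLocalIdeal M (chiT χ (i * y * i) - (r : ℂ) * chiT χ i) := by
  obtain ⟨r, N, hN⟩ := exists_nil_sub h hy
  refine ⟨r, ?_⟩
  have h1 := chiT_mem_of_nil hχ (x := i * (y - algebraMap _ _ r) * i) hN
  have h2 : i * (y - algebraMap _ _ r) * i = i * y * i - r • i := by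
    rw [mul_sub, sub_mul, Algebra.smul_def]
    congr 1
    rw [← Algebra.commutes, mul_assoc, h.idem]
  rw [h2, map_sub, chiT_smul] at h1
  exact h1

end Corner

section Proj

/-- **A class function vanishing on `p`-regular elements vanishes at idempotents.** -/
theorem chiT_idem_eq_zero (hM : IsPModular p M) {a : MonoidAlgebra (localSubring M) X} (haa : a * a = a)
    {f : X → ℂ} (hf : IsClassFunction X f) (hreg : ∀ g, ¬ p ∣ orderOf g → f g = 0) : chiT f a = 0 := by
  classical
  have hX : (Nat.card X : ℂ) ≠ 0 := by exact_mod_cast Nat.card_pos.ne'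
  have hconv : conv (coeF a) (coeF a) = coeF a := by
    rw [← coeF_mul, haa]
  have hzero : ∀ g : X, p ∣ orderOf g → ∑ x : X, coeF a (x * g * x⁻¹) = 0 := by
    intro g hg
    have := Cfsg.Agent.Lib.BlkOrth.trace_lemma hM (coeF a) (coeF_local a) hconv 1 g (fun t => by simp) ∅
      (fun x => by simp) (fun x _ k hk => ?_) (fun u hu => absurd hu (Set.notMem_empty u))
    · simpa using this
    · have h1 : x * g ^ k = x := by simpa using hk
      have h2 : g ^ k = 1 := by simpa using h1
      exact hg.trans (orderOf_dvd_of_pow_eq_one h2)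
  have h1 : ∑ g : X, f g * ∑ x : X, coeF a (x * g * x⁻¹) = 0 := by
    refine Finset.sum_eq_zero fun g _ => ?_
    by_cases hg : p ∣ orderOf g
    · rw [hzero g hg, mul_zero]
    · rw [hreg g hg, zero_mul]
  simp_rw [Finset.mul_sum] at h1
  rw [Finset.sum_comm] at h1
  have h2 : ∀ x : X, ∑ g : X, f g * coeF a (x * g * x⁻¹) = ∑ k : X, coeF a k * f k := by
    intro x
    refine Fintype.sum_equiv (MulAut.conj x).toEquiv _ _ fun g => ?_
    show _ = coeF a (x * g * x⁻¹) * f (x * g * x⁻¹)
    rw [hf g x]
    ring
  simp_rw [h2] at h1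
  rw [Finset.sum_const, Finset.card_univ, ← Nat.card_eq_fintype_card, nsmul_eq_mul] at h1
  rw [chiT_apply]
  exact (mul_eq_zero.1 h1).resolve_left hX

/-- Values at idempotents only depend on the values on `p`-regular elements. -/
theorem chiT_idem_congr (hM : IsPModular p M) {a : MonoidAlgebra (localSubring M) X} (haa : a * a = a)
    {f g : X → ℂ} (hf : IsClassFunction X f) (hg : IsClassFunction X g)
    (h : ∀ x, ¬ p ∣ orderOf x → f x = g x) : chiT f a = chiT g a := by
  have h1 := chiT_idem_eq_zero (f := f - g) hM haa (by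
    intro x y
    simp only [Pi.sub_apply]
    rw [hf, hg]) (fun x hx => by simp [h x hx])
  rw [chiT_apply] at h1
  simp only [Pi.sub_apply, mul_sub] at h1
  rw [Finset.sum_sub_distrib, sub_eq_zero] at h1
  exact h1

end Proj

section Idem

/-- An idempotent which is absorbed by a block idempotent modulo the maximal ideal is absorbed. -/
theorem mul_eG_of_red {b : Set (IrrCharacter X)} (hb : IsPBlock M b) {j : MonoidAlgebra (localSubring M) X}
    (hjj : j * j = j) (h : red j * red (Cfsg.Agent.Lib.StarII.eG b hb) = red j) :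
    j * Cfsg.Agent.Lib.StarII.eG b hb = j := by
  set ε := Cfsg.Agent.Lib.StarII.eG b hb with hε
  have hεε : ε * ε = ε := Cfsg.Agent.Lib.StarII.eG_idem b hb
  have hc : ε * j = j * ε := Cfsg.Agent.Lib.StarII.eG_comm b hb j
  have h1 : (j - j * ε) * (j - j * ε) = j - j * ε := by
    have e1 : j * ε * j = j * ε := by
      rw [mul_assoc, hc, ← mul_assoc, hjj]
    have e2 : j * (j * ε) = j * ε := by
      rw [← mul_assoc, hjj]
    have e3 : j * ε * (j * ε) = j * ε := by
      rw [← mul_assoc, e1, mul_assoc, hεε]
    rw [mul_sub, sub_mul, sub_mul, hjj, e1, e2, e3]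
    abel
  have h2 : red (j - j * ε) = 0 := by
    rw [map_sub, map_mul, h, sub_self]
  have h3 := (LL M X).eq_zero_of_phi_eq_zero h1 h2
  exact (sub_eq_zero.1 h3).symm

/-- The value at `j e_b` is the value of the block projection at `j`. -/
theorem chiT_mul_eG_eq (b : Set (IrrCharacter X)) (hb : IsPBlock M b) {f : X → ℂ} (hf : IsClassFunction X f)
    (j : MonoidAlgebra (localSubring M) X) :
    chiT f (j * Cfsg.Agent.Lib.StarII.eG b hb) = chiT (Cfsg.Agent.Lib.BlockOrtho.blockProj b f) j := by
  classical
  rw [chiT_apply, chiT_apply, coeF_mul, Cfsg.Agent.Lib.StarII.coeF_eG]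
  unfold conv
  simp_rw [Finset.sum_mul]
  rw [Finset.sum_comm]
  refine Finset.sum_congr rfl fun a _ => ?_
  rw [← Cfsg.Agent.Lib.StarInner.sum_blockCoeff_mul b hf a, Finset.mul_sum]
  refine Fintype.sum_equiv (Equiv.mulLeft a⁻¹) _ _ fun k => ?_
  simp only [Equiv.coe_mulLeft]
  rw [mul_assoc, mul_inv_cancel_left]

/-- **The value at an idempotent in a block.** -/
theorem chiT_of_block (hM : IsPModular p M) {b : Set (IrrCharacter X)} (hb : IsPBlock M b)
    {j : MonoidAlgebra (localSubring M) X} (hjj : j * j = j)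
    (hj : red j * red (Cfsg.Agent.Lib.StarII.eG b hb) = red j) {f ψ : X → ℂ} (hf : IsClassFunction X f)
    (hψ : IsClassFunction X ψ) {c : ℂ}
    (hc : ∀ y, ¬ p ∣ orderOf y → Cfsg.Agent.Lib.BlockOrtho.blockProj b f y = c * ψ y) :
    chiT f j = c * chiT ψ j := by
  have h1 := chiT_mul_eG_eq b hb hf j
  rw [mul_eG_of_red hb hjj hj] at h1
  rw [h1]
  have hcl : IsClassFunction X (fun y => c * ψ y) := by
    intro x y
    show c * ψ _ = c * ψ _
    rw [hψ]
  have hbp : IsClassFunction X (Cfsg.Agent.Lib.BlockOrtho.blockProj b f) := by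
    exact Cfsg.Agent.Lib.StarAct.blockProj_isClass b f
  rw [chiT_idem_congr hM hjj hbp hcl hc]
  rw [chiT_apply, chiT_apply, Finset.mul_sum]
  refine Finset.sum_congr rfl fun k _ => ?_
  ring

end Idem

section Bridge

variable {H K : Type u} [Group H] [Fintype H] [Group K] [Fintype K] (f : K →* H)

/-- The map of group algebras. -/
noncomputable abbrev liftA : MonoidAlgebra (localSubring M) K →+* MonoidAlgebra (localSubring M) H :=
  MonoidAlgebra.mapDomainRingHom _ f

/-- The map of group algebras over the residue field. -/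
noncomputable abbrev liftK :
    MonoidAlgebra (IsLocalRing.ResidueField (localSubring M)) K →+*
      MonoidAlgebra (IsLocalRing.ResidueField (localSubring M)) H :=
  MonoidAlgebra.mapDomainRingHom _ f

variable {f}

theorem coeff_map_apply {R : Type*} [Semiring R] (hf : Function.Injective f) (x : MonoidAlgebra R K) (k : K) :
    (MonoidAlgebra.mapDomainRingHom R f x).coeff (f k) = x.coeff k := by
  show (Finsupp.mapDomain f x.coeff) (f k) = _
  exact Finsupp.mapDomain_apply hf _ _

theorem coeff_map_not {R : Type*} [Semiring R] (x : MonoidAlgebra R K) {h : H} (hh : h ∉ Set.range f) :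
    (MonoidAlgebra.mapDomainRingHom R f x).coeff h = 0 := by
  show (Finsupp.mapDomain f x.coeff) h = _
  exact Finsupp.mapDomain_of_notMem_range _ _ hh

theorem liftK_injective (hf : Function.Injective f) :
    Function.Injective (liftK (M := M) f) := by
  intro x y h
  apply Cfsg.Agent.Lib.BlockResidue.ext_coeff
  intro k
  rw [← coeff_map_apply hf x k, ← coeff_map_apply hf y k]
  exact congrArg (fun z => MonoidAlgebra.coeff z (f k)) h

theorem red_liftA (hf : Function.Injective f) (x : MonoidAlgebra (localSubring M) K) :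
    red (liftA f x) = liftK f (red x) := by
  apply Cfsg.Agent.Lib.BlockResidue.ext_coeff
  intro h
  by_cases hh : h ∈ Set.range f
  · obtain ⟨k, rfl⟩ := hh
    rw [coeff_red, coeff_map_apply hf, coeff_map_apply hf, coeff_red]
  · rw [coeff_red, coeff_map_not _ hh, coeff_map_not _ hh, map_zero]

theorem chiT_ofG_mul_lift (hf : Function.Injective f) (ζ : H → ℂ) (v : H)
    (x : MonoidAlgebra (localSubring M) K) :
    chiT ζ (ofG (localSubring M) v * liftA f x) = ∑ k : K, coeF x k * ζ (v * f k) := by
  rw [chiT_ofG_mul]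
  symm
  refine Fintype.sum_of_injective f hf _ _ ?_ ?_
  · intro h hh
    have : coeF (liftA f x) h = 0 := by
      rw [coeF_apply, coeff_map_not _ hh]
      rfl
    rw [this, zero_mul]
  · intro k
    rw [coeF_apply, coeF_apply, coeff_map_apply hf]

/-- **The bridge.** -/
theorem chiT_bridge (hM : IsPModular p M) (hf : Function.Injective f) {v : H} (hv : ∃ k : ℕ, orderOf v = p ^ k)
    (hfv : ∀ k, v * f k = f k * v) {ζ : H → ℂ} (hζ : IsClassFunction H ζ)
    {j : MonoidAlgebra (localSubring M) H} (hj : j ∈ SV M v) (hjj : j * j = j)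
    {j' : MonoidAlgebra (localSubring M) K} (hjj' : j' * j' = j')
    (hmatch : br (Subgroup.zpowers v) j = liftK f (red j')) :
    chiT ζ (ofG (localSubring M) v * j) = ∑ k : K, coeF j' k * ζ (v * f k) := by
  classical
  rw [← chiT_ofG_mul_lift hf]
  set q := liftA f j' with hq
  have hqq : q * q = q := by
    rw [hq, ← map_mul, hjj']
  have hqS : q ∈ SV M v := by
    rw [mem_SV_iff]
    apply Cfsg.Agent.Lib.BlockResidue.ext_coeff
    intro g
    show (MonoidAlgebra.single v (1 : localSubring M) * q).coeff g = (q * MonoidAlgebra.single v (1 : localSubring M)).coeff g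
    rw [Cfsg.Agent.Lib.BlockResidue.coeff_single_mul', Cfsg.Agent.Lib.BlockResidue.coeff_mul_single']
    by_cases hg : v⁻¹ * g ∈ Set.range f
    · obtain ⟨k, hk⟩ := hg
      have h1 : g * v⁻¹ = f k := by
        have h2 : g = v * f k := by rw [hk]; group
        rw [h2, hfv k]
        group
      rw [← hk, h1]
    · have hg' : g * v⁻¹ ∉ Set.range f := by
        rintro ⟨k, hk⟩
        apply hg
        refine ⟨k, ?_⟩
        have h2 : g = f k * v := by rw [hk]; group
        rw [h2, ← hfv k]
        group
      rw [hq, coeff_map_not _ hg, coeff_map_not _ hg']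
  have hbr : br (Subgroup.zpowers v) q = liftK f (red j') := by
    apply Cfsg.Agent.Lib.BlockResidue.ext_coeff
    intro g
    by_cases hg : g ∈ Set.range f
    · obtain ⟨k, rfl⟩ := hg
      have hmem : f k ∈ Subgroup.centralizer ((Subgroup.zpowers v : Subgroup H) : Set H) := by
        rw [Cfsg.Agent.Lib.BlockSecond.centralizer_zpowers_eq, Subgroup.mem_centralizer_singleton_iff]
        exact (hfv k).symm
      rw [br_coeff_mem _ _ hmem, hq, coeff_map_apply hf, coeff_map_apply hf, coeff_red]
    · rw [coeff_map_not _ hg]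
      by_cases hmem : g ∈ Subgroup.centralizer ((Subgroup.zpowers v : Subgroup H) : Set H)
      · rw [br_coeff_mem _ _ hmem, hq, coeff_map_not _ hg, map_zero]
      · rw [br_coeff_not_mem _ _ hmem]
  have hpp := Cfsg.Agent.Lib.BlkOrth.isPPart_self hv hp.out
  have h1 := Th_eq hM hζ hpp hj hjj
  have h2 := Th_eq hM hζ hpp hqS hqq
  rw [← h1, ← h2, hbr, hmatch]

/-- The truncation of an element to a group mapping injectively. -/
noncomputable def trunc (f : K →* H) (i : MonoidAlgebra (localSubring M) H) : MonoidAlgebra (localSubring M) K :=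
  Cfsg.Agent.Lib.BlockResidue.ofFun fun k => i.coeff (f k)

theorem coeff_trunc (i : MonoidAlgebra (localSubring M) H) (k : K) : (trunc f i).coeff k = i.coeff (f k) := rfl

theorem homOn_red (S : Subalgebra (localSubring M) (MonoidAlgebra (localSubring M) K)) :
    HomOn (LL M K) S (red : MonoidAlgebra (localSubring M) K →+* _).toAddMonoidHom where
  mul a _ b _ := map_mul red a b
  one := map_one red
  ker a _ h := h

/-- **The levels.** -/
theorem exists_level (hM : IsPModular p M) (hf : Function.Injective f) {D : Subgroup H} (hD : IsPGroup p D)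
    (hr : ∀ h : H, h ∈ Subgroup.centralizer (D : Set H) ↔ h ∈ Set.range f)
    {i : MonoidAlgebra (localSubring M) H} (hi : i ∈ cen (localSubring M) (D : Set H)) (hii : i * i = i)
    (E : Set K) (hE : i ∈ cen (localSubring M) (f '' E)) :
    ∃ j : MonoidAlgebra (localSubring M) K, j * j = j ∧ j ∈ cen (localSubring M) E ∧
      br D i = liftK f (red j) := by
  classical
  set x := trunc f i with hx
  have hbr : br D i = liftK f (red x) := by
    apply Cfsg.Agent.Lib.BlockResidue.ext_coeff
    intro g
    by_cases hg : g ∈ Set.range f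
    · obtain ⟨k, rfl⟩ := hg
      rw [br_coeff_mem _ _ ((hr _).2 ⟨k, rfl⟩), coeff_map_apply hf, coeff_red, hx, coeff_trunc]
    · rw [br_coeff_not_mem _ _ (fun h => hg ((hr g).1 h)), coeff_map_not _ hg]
  have hxE : x ∈ cen (localSubring M) E := by
    rw [mem_cen_coeff]
    intro e he k
    rw [hx, coeff_trunc, coeff_trunc]
    have h1 : f (e⁻¹ * k * e) = (f e)⁻¹ * f k * f e := by simp
    rw [h1]
    exact (mem_cen_coeff.1 hE) (f e) ⟨e, he, rfl⟩ (f k)
  have hidem : red x * red x = red x := by
    apply liftK_injective (M := M) hf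
    rw [map_mul, ← hbr]
    exact ((homOn_br (p := p) splitR_local (hpm_of hM) hD (E := (D : Set H)) subset_rfl).mul i hi i hi).symm.trans
      (by rw [hii])
  obtain ⟨g, hg1, hg2⟩ := exists_lift (homOn_red (cen (localSubring M) E)) hxE hidem
  refine ⟨aeval x g, hg1, aeval_mem _ hxE g, ?_⟩
  have : red (aeval x g) = red x := hg2
  rw [this, hbr]

end Bridge

end Cfsg.Agent.Lib.BFNorm
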