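import Mathlib
import Cfsg.Agent.Lib.BFNorm
import Cfsg.Agent.Lib.BlockDefect
import Cfsg.Agent.Lib.BrauerLift

/-!
# Source idempotents of a block
-/

set_option autoImplicit false
set_option linter.unusedSectionVars false
set_option linter.unusedVariables false
set_option linter.style.haveILetI false

namespace Cfsg.Agent.Lib.BFSrc

open Polynomial IsLocalRing Cfsg Cfsg.Agent.Lib.StarFit Cfsg.Agent.Lib.StarGrp
open Cfsg.Agent.Lib.StarLoc Cfsg.Agent.Lib.BlockLocal Cfsg.Agent.Lib.BlockCover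
open Cfsg.Agent.Lib.BlockResidue Cfsg.Agent.Lib.BrauerMap Cfsg.Agent.Lib.BrauerPair
open Cfsg.Agent.Lib.BrauerSub Cfsg.Agent.Lib.BlockIdem Cfsg.Agent.Lib.CharIntegrality
open Cfsg.Agent.Lib.BlkBasic Cfsg.Agent.Lib.StarBlk Cfsg.Agent.Lib.StarP Cfsg.Agent.Lib.StarTh
open Cfsg.Agent.Lib.StarFit.LocSys Cfsg.Agent.Lib.GenChar Cfsg.Agent.Lib.CharBasic
open Cfsg.Agent.Lib.CharInd Cfsg.Agent.Lib.StarGen Cfsg.Agent.Lib.BrauerConj
open Cfsg.Agent.Lib.BrauerCen Cfsg.Agent.Lib.BrauerMax Cfsg.Agent.Lib.StarII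
open Cfsg.Agent.Lib.StarGlob Cfsg.Agent.Lib.BlockOrtho Cfsg.Agent.Lib.StarInner
open Cfsg.Agent.Lib.BFNorm Cfsg.Agent.Lib.BlockDefect Cfsg.Agent.Lib.BrauerLift
open Cfsg.Agent.Lib.BlockVal (isIntegral_char)
open scoped ComplexConjugate

universe u

variable {G : Type u} [Group G] [Fintype G] {p : ℕ} [hp : Fact p.Prime] {M : Ideal AlgInt}
  [hMp : M.IsPrime]

local notation "𝐂[" R "]" => Subgroup.centralizer ((R : Subgroup G) : Set G)
local notation "𝐍[" R "]" => Subgroup.normalizer ((R : Subgroup G) : Set G)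

noncomputable local instance fintypeSubBFS {A : Type*} [Group A] [Finite A] (K : Subgroup A) : Fintype K :=
  Fintype.ofFinite K

/-- Fixed elements with zero Brauer image have character value in the ideal. -/
theorem chiT_mem_of_br_zero (hM : IsPModular p M) {P : Subgroup G} (hP : IsPGroup p P) {χ : G → ℂ}
    (hχ : IsCharacter G χ) {a : MonoidAlgebra (localSubring M) G}
    (ha : a ∈ cen (localSubring M) (P : Set G)) (h0 : br P a = 0) : MemLocalIdeal M (chiT χ a) := by
  classical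
  have hχc : IsClassFunction G χ := isClassFunction_of_isCharacter hχ
  letI : MulAction P G :=
    { smul := fun u g => (u : G) * g * (u : G)⁻¹
      one_smul := fun g => by
        show ((1 : P) : G) * g * ((1 : P) : G)⁻¹ = g
        simp
      mul_smul := fun u v g => by
        show ((u * v : P) : G) * g * ((u * v : P) : G)⁻¹ = (u : G) * ((v : G) * g * (v : G)⁻¹) * (u : G)⁻¹
        push_cast
        group }
  have hsm : ∀ (u : P) (g : G), u • g = (u : G) * g * (u : G)⁻¹ := fun _ _ => rfl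
  rw [chiT_apply]
  apply memLocalIdeal_sum_of_invariant hM hP
  · intro u x
    have h1 : coeF a (u • x) = coeF a x := by
      simp only [coeF_apply]
      rw [hsm]
      have h2 := mem_cen_coeff.1 ha ((u : G)⁻¹) (P.inv_mem u.2) x
      rw [inv_inv] at h2
      rw [h2]
    rw [h1, hsm, hχc]
  · intro x
    exact memLocalRing_mul (a.coeff x).2 (memLocalRing_of_isIntegral (isIntegral_char hχ x))
  · intro x hx
    have hxC : x ∈ 𝐂[P] := by
      rw [Subgroup.mem_centralizer_iff]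
      intro y hy
      have h1 := hx ⟨y, hy⟩
      rw [hsm] at h1
      have h2 : y * x * y⁻¹ = x := h1
      calc y * x = y * x * y⁻¹ * y := by group
        _ = x * y := by rw [h2]
    have h2 := br_coeff_mem P a hxC
    rw [h0] at h2
    have h3 : residue (localSubring M) (a.coeff x) = 0 := by
      rw [← h2]
      rfl
    exact memLocalIdeal_mul_right (memLocalIdeal_of_residue _ h3)
      (memLocalRing_of_isIntegral (isIntegral_char hχ x))

/-- A height zero character does not vanish modulo the ideal at a defect class. -/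
theorem exists_value_unit (hM : IsPModular p M) {B : Set (IrrCharacter G)} (hB : IsPBlock M B)
    {P : Subgroup G} (hPD : IsDefectGroup p M B P) {χ₀ : IrrCharacter G} (hχ₀ : χ₀ ∈ B)
    (h0 : (charDegree (χ₀ : G → ℂ)).factorization p = Cfsg.Agent.Lib.BlockQ.minExp p B) :
    ∃ g : G, (∀ x ∈ P, x * g = g * x) ∧ ¬ MemLocalIdeal M ((χ₀ : G → ℂ) g) := by
  classical
  have hcard := card_isDefectGroup hM hB hPD
  obtain ⟨g, hdc, hle, hc⟩ := isDefectGroup_iff.1 hPD
  refine ⟨g, ?_, ?_⟩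
  · intro x hx
    have h1 := Subgroup.mem_centralizer_iff.1 (hle hx) g rfl
    exact h1.symm
  intro hval
  apply hdc.2.2 χ₀ hχ₀
  have hχc := IsIrrCharacter.isCharacter χ₀.2
  set C := Subgroup.centralizer ({g} : Set G) with hC
  have hd : (Nat.card C).factorization p = blockDefect p B := by
    have h1 := hcard.symm.trans hc
    exact (Nat.pow_right_injective hp.out.two_le h1).symm
  have hidx : C.index * Nat.card C = Nat.card G := C.index_mul_card
  have hdeg : charDegree (χ₀ : G → ℂ) ≠ 0 := Cfsg.Agent.Lib.CharKernel.charDegree_ne_zero χ₀.2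
  have hI0 : C.index ≠ 0 := Subgroup.index_ne_zero_of_finite
  have hC0 : Nat.card C ≠ 0 := Nat.card_pos.ne'
  have hfac : C.index.factorization p = Cfsg.Agent.Lib.BlockQ.minExp p B := by
    have h1 : (C.index * Nat.card C).factorization p = (Nat.card G).factorization p := by rw [hidx]
    rw [Nat.factorization_mul hI0 hC0, Finsupp.add_apply, hd] at h1
    have h2 : blockDefect p B = (Nat.card G).factorization p - Cfsg.Agent.Lib.BlockQ.minExp p B := rfl
    have h3 : Cfsg.Agent.Lib.BlockQ.minExp p B ≤ (Nat.card G).factorization p := by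
      rw [← h0]
      exact (Nat.factorization_le_iff_dvd hdeg Nat.card_pos.ne').2
        (Cfsg.Agent.Lib.CharKernel.charDegree_dvd_card χ₀.2) p
    omega
  obtain ⟨x, hx⟩ : p ^ Cfsg.Agent.Lib.BlockQ.minExp p B ∣ C.index := by
    rw [← hfac]
    exact Nat.ordProj_dvd _ _
  obtain ⟨y, hy⟩ : p ^ Cfsg.Agent.Lib.BlockQ.minExp p B ∣ charDegree (χ₀ : G → ℂ) := by
    rw [← h0]
    exact Nat.ordProj_dvd _ _
  have hy' : ¬ p ∣ y := by
    intro hdvd
    have h1 : p ^ (Cfsg.Agent.Lib.BlockQ.minExp p B + 1) ∣ charDegree (χ₀ : G → ℂ) := by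
      rw [hy, pow_succ]
      exact Nat.mul_dvd_mul_left _ hdvd
    have h2 := (hp.out.pow_dvd_iff_le_factorization hdeg).1 h1
    omega
  have hpm0 : (p : ℂ) ^ Cfsg.Agent.Lib.BlockQ.minExp p B ≠ 0 :=
    pow_ne_zero _ (by exact_mod_cast hp.out.ne_zero)
  have hy0 : (y : ℂ) ≠ 0 := by
    intro h
    have : y = 0 := by exact_mod_cast h
    exact hy' (this ▸ dvd_zero p)
  have heq : centralChar (χ₀ : G → ℂ) g = ((x : ℂ) * (y : ℂ)⁻¹) * (χ₀ : G → ℂ) g := by
    unfold centralChar
    rw [Cfsg.Agent.Lib.CharKernel.one_eq_charDegree hχc, hy, hx]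
    push_cast
    field_simp
  rw [heq]
  exact memLocalIdeal_mul_left (memLocalRing_mul (memLocalRing_natCast x) (memLocalRing_inv_natCast hM hy')) hval

/-- A source idempotent. -/
structure IsSrc (P : Subgroup G) (c : BlockT M 𝐂[P]) (χ₀ : G → ℂ)
    (i : MonoidAlgebra (localSubring M) G) : Prop where
  prim : PrimIn (SS M P ⊥) i
  ne : br P i ≠ 0
  blk : br P i * bb P c = br P i
  unit : ¬ MemLocalIdeal M (chiT χ₀ i)

theorem mem_normalizer_of_map_eq {P : Subgroup G} {y : G}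
    (h : Subgroup.map (MulEquiv.toMonoidHom (MulAut.conj y)) P = P) : y ∈ 𝐍[P] := by
  rw [Subgroup.mem_normalizer_iff]
  intro x
  constructor
  · intro hx
    rw [← h]
    exact ⟨x, hx, rfl⟩
  · intro hx
    rw [← h] at hx
    obtain ⟨x', hx', he⟩ := hx
    have h1 : y * x' * y⁻¹ = y * x * y⁻¹ := he
    have h2 : x' = x := by
      have := mul_right_cancel h1
      exact mul_left_cancel this
    rwa [← h2]

theorem primIn_cj {P : Subgroup G} {y : G} (hy : y ∈ 𝐍[P]) {i : MonoidAlgebra (localSubring M) G}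
    (hi : PrimIn (SS M P ⊥) i) : PrimIn (SS M P ⊥) (cj y i) := by
  have hτ : ∀ z : G, ∀ s ∈ (⊥ : Subgroup G), z * s = s * z := by
    intro z s hs
    rw [Subgroup.mem_bot] at hs
    rw [hs]
    simp
  have hinv : ∀ x : MonoidAlgebra (localSubring M) G, cj y⁻¹ (cj y x) = x := by
    intro x
    rw [← cj_mul]
    simp [cj_one]
  have hinv' : ∀ x : MonoidAlgebra (localSubring M) G, cj y (cj y⁻¹ x) = x := by
    intro x
    rw [← cj_mul]
    simp [cj_one]
  refine ⟨cj_mem_SS hy (hτ y) hi.mem, ?_, ?_, ?_⟩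
  · rw [← cj_mul', hi.idem]
  · intro h0
    apply hi.ne
    rw [← hinv i, h0]
    simp [cj]
  · intro q hq hqq h1 h2
    have hyi : y⁻¹ ∈ 𝐍[P] := Subgroup.inv_mem _ hy
    have hq' : cj y⁻¹ q ∈ SS M P ⊥ := cj_mem_SS hyi (hτ _) hq
    have h3 := hi.prim (cj y⁻¹ q) hq' (by rw [← cj_mul', hqq]) (by
      have := congrArg (cj y⁻¹) h1
      rwa [cj_mul', hinv] at this) (by
      have := congrArg (cj y⁻¹) h2
      rwa [cj_mul', hinv] at this)
    rcases h3 with h3 | h3
    · left
      rw [← hinv' q, h3]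
      simp [cj]
    · right
      rw [← hinv' q, h3]

/-- **Existence of a source idempotent.** -/
theorem exists_source (hM : IsPModular p M) {B : Set (IrrCharacter G)} (hB : IsPBlock M B)
    {P : Subgroup G} (hPD : IsDefectGroup p M B P) (c : BlockT M 𝐂[P])
    (hmax : IsMaximalBrauerPair p M B P c.1) {χ₀ : IrrCharacter G} (hχ₀ : χ₀ ∈ B)
    (h0 : (charDegree (χ₀ : G → ℂ)).factorization p = Cfsg.Agent.Lib.BlockQ.minExp p B) :
    ∃ i, IsSrc P c (χ₀ : G → ℂ) i := by
  classical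
  have hχ := IsIrrCharacter.isCharacter χ₀.2
  have hχc : IsClassFunction G (χ₀ : G → ℂ) := isClassFunction_of_isCharacter hχ
  have hPp : IsPGroup p P := hmax.1.1.1
  obtain ⟨g, hg, hval⟩ := exists_value_unit hM hB hPD hχ₀ h0
  have hbot : ∀ τ ∈ P, ∀ s ∈ (⊥ : Subgroup G), τ * s = s * τ := by
    intro τ _ s hs
    rw [Subgroup.mem_bot] at hs
    rw [hs]
    simp
  have hgS : ofG (localSubring M) g ∈ SS M P ⊥ := by
    rw [mem_cen]
    rintro e (he | he)
    · rw [← ofG_mul, ← ofG_mul, hg e he]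
    · have : e = 1 := Subgroup.mem_bot.1 he
      rw [this]
      simp
  obtain ⟨κ, _, E, hprim, horth, hsum⟩ := exists_prim_decomp (LL M G) (S := SS M P ⊥) (a := 1)
    (Subalgebra.one_mem _) (one_mul 1)
  have hex : ∃ j, ¬ MemLocalIdeal M (chiT (χ₀ : G → ℂ) (ofG (localSubring M) g * E j)) := by
    by_contra hne
    push Not at hne
    apply hval
    have h1 : (χ₀ : G → ℂ) g = ∑ j, chiT (χ₀ : G → ℂ) (ofG (localSubring M) g * E j) := by
      rw [← map_sum, ← Finset.mul_sum, hsum, mul_one, chiT_ofG]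
    rw [h1]
    exact memLocalIdeal_sum _ _ fun j _ => hne j
  obtain ⟨j, hj⟩ := hex
  have hcorner : chiT (χ₀ : G → ℂ) (ofG (localSubring M) g * E j) =
      chiT (χ₀ : G → ℂ) (E j * ofG (localSubring M) g * E j) := by
    have h1 := chiT_mul_comm hχc (ofG (localSubring M) g) (E j * E j)
    rw [(hprim j).idem] at h1
    rw [h1]
    have h2 := chiT_mul_comm hχc (ofG (localSubring M) g * E j) (E j)
    rw [mul_assoc] 
    have h3 := chiT_mul_comm hχc (E j) (ofG (localSubring M) g * E j)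
    rw [h3, mul_assoc, (hprim j).idem]
    rw [chiT_mul_comm hχc (E j)]
  obtain ⟨r, hr⟩ := chiT_corner hχ (hprim j) hgS
  have hunit : ¬ MemLocalIdeal M (chiT (χ₀ : G → ℂ) (E j)) := by
    intro h1
    apply hj
    rw [hcorner]
    have h2 := memLocalIdeal_add hr (memLocalIdeal_mul_left r.2 h1)
    simpa using h2
  have hEP := SS_left (hprim j).mem
  have hbrne : br P (E j) ≠ 0 := fun h1 => hunit (chiT_mem_of_br_zero hM hPp hχ hEP h1)
  obtain ⟨c', hc'⟩ := exists_block hM hPp hbot (hprim j)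
  have hψ := homD (H := ⊥) hM hPp (le_refl P)
  have heGS : eG B hB ∈ SS M P ⊥ := eG_mem_cen B hB _
  have hne : br P (eG B hB) * bb P c' ≠ 0 := by
    intro h1
    apply hunit
    rw [← chiT_mul_eG hB hχ₀]
    apply chiT_mem_of_br_zero hM hPp hχ ((SS M P ⊥).mul_mem (hprim j).mem heGS |> SS_left)
    rw [hψ.mul _ (hprim j).mem _ heGS, ← hc', mul_assoc, ← (bb_commute P _ c').eq, h1, mul_zero]
  have hpair : IsBrauerPairOf p M B P c'.1 := pair_of_br_ne hM hB hPp c' hne
  have hmax' : IsMaximalBrauerPair p M B P c'.1 := isMaximal_of_isDefectGroup hM hpair hPD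
  obtain ⟨y, hy⟩ := exists_cp_eq_of_maximal hM hmax hmax'
  have hyN : y ∈ 𝐍[P] := mem_normalizer_of_map_eq (congrArg Sigma.fst hy)
  have hyN' := normalizer_le_normalizer_centralizer P hyN
  rw [cp_of_normalizer hyN hyN'] at hy
  have htw : twistSet (conjAut 𝐂[P] y hyN') c'.1 = c.1 := eq_of_heq (Sigma.mk.inj hy).2
  have hbb : cj y (bb P c') = bb P c := by
    unfold bb
    rw [← br_cj hyN, cj_eB 𝐂[P] hyN' c']
    congr 2
    exact Subtype.ext htw
  refine ⟨cj y (E j), primIn_cj hyN (hprim j), ?_, ?_, ?_⟩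
  · rw [br_cj hyN]
    intro h1
    apply hbrne
    have h2 := congrArg (cj y⁻¹) h1
    rw [← cj_mul] at h2
    simpa [cj_one, cj] using h2
  · rw [br_cj hyN, ← hbb, ← cj_mul', hc']
  · rw [chiT_cj hχc]
    exact hunit

section Schur

variable {X : Type u} [Group X] [Fintype X]

theorem chiT_mul_expand (χ : X → ℂ) (x y : MonoidAlgebra (localSubring M) X) :
    chiT χ (x * y) = ∑ a, ∑ b, coeF x a * coeF y b * χ (a * b) := by
  rw [chiT_apply, coeF_mul]
  unfold conv
  simp_rw [Finset.sum_mul]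
  rw [Finset.sum_comm]
  refine Finset.sum_congr rfl fun a _ => ?_
  refine Fintype.sum_equiv (Equiv.mulLeft a⁻¹) _ _ fun k => ?_
  simp

/-- The Schur relation. -/
theorem sum_chiT_cj (ψ : IrrCharacter X) (a b : MonoidAlgebra (localSubring M) X) :
    ∑ g : X, chiT (ψ : X → ℂ) (a * cj g b) =
      (Fintype.card X : ℂ) * chiT (ψ : X → ℂ) a * chiT (ψ : X → ℂ) b / (ψ : X → ℂ) 1 := by
  classical
  have hψc : IsClassFunction X (ψ : X → ℂ) := isClassFunction_of_isCharacter (IsIrrCharacter.isCharacter ψ.2)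
  set e : X → ℂ := fun l => ∑ g : X, coeF (cj g b) l with he
  have hec : IsClassFunction X e := by
    intro s t
    simp only [he, coeF_cj]
    refine Fintype.sum_equiv (Equiv.mulLeft t⁻¹) _ _ fun g => ?_
    congr 1
    simp only [Equiv.coe_mulLeft, mul_inv_rev, inv_inv]
    group
  have h1 : ∀ s, ∑ l, e l * (ψ : X → ℂ) (s * l) = Cfsg.Agent.Lib.BlockIdem.omega (ψ : X → ℂ) e * (ψ : X → ℂ) s :=
    Cfsg.Agent.Lib.BlockSecond.sum_class_mul_irr hec ψ
  have h2 : Cfsg.Agent.Lib.BlockIdem.omega (ψ : X → ℂ) e =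
      (Fintype.card X : ℂ) * chiT (ψ : X → ℂ) b / (ψ : X → ℂ) 1 := by
    unfold Cfsg.Agent.Lib.BlockIdem.omega
    congr 1
    have h3 : ∑ g : X, e g * (ψ : X → ℂ) g = ∑ g : X, chiT (ψ : X → ℂ) (cj g b) := by
      simp only [he, Finset.sum_mul, chiT_apply]
      rw [Finset.sum_comm]
    rw [h3, Finset.sum_congr rfl fun g _ => chiT_cj hψc g b]
    simp [Finset.card_univ]
  calc ∑ g : X, chiT (ψ : X → ℂ) (a * cj g b)
      = ∑ g : X, ∑ s, ∑ l, coeF a s * coeF (cj g b) l * (ψ : X → ℂ) (s * l) :=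
        Finset.sum_congr rfl fun g _ => chiT_mul_expand _ _ _
    _ = ∑ s, coeF a s * ∑ l, e l * (ψ : X → ℂ) (s * l) := by
        rw [Finset.sum_comm]
        refine Finset.sum_congr rfl fun s _ => ?_
        rw [Finset.sum_comm, Finset.mul_sum]
        refine Finset.sum_congr rfl fun l _ => ?_
        simp only [he, Finset.sum_mul, Finset.mul_sum]
        refine Finset.sum_congr rfl fun g _ => ?_
        ring
    _ = _ := by
        simp_rw [h1, h2]
        set A : ℂ := (Fintype.card X : ℂ) * chiT (ψ : X → ℂ) b / (ψ : X → ℂ) 1 with hA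
        have h4 : (Fintype.card X : ℂ) * chiT (ψ : X → ℂ) a * chiT (ψ : X → ℂ) b / (ψ : X → ℂ) 1 =
            A * chiT (ψ : X → ℂ) a := by
          rw [hA]
          ring
        rw [h4, chiT_apply (ψ : X → ℂ) a, Finset.mul_sum]
        refine Finset.sum_congr rfl fun s _ => ?_
        ring

/-- A sum of a function invariant under right translation. -/
theorem exists_sum_quot (H : Subgroup X) {F : X → ℂ} (hF : ∀ g, ∀ h ∈ H, F (g * h) = F g) :
    ∃ (Q : Type u) (_ : Fintype Q) (t : Q → X),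
      ∑ g, F g = (Nat.card H : ℂ) * ∑ q, F (t q) := by
  classical
  letI : Fintype (X ⧸ H) := Fintype.ofFinite _
  refine ⟨X ⧸ H, inferInstance, Quotient.out, ?_⟩
  rw [← Finset.sum_fiberwise Finset.univ (fun g : X => (g : X ⧸ H)) F, Finset.mul_sum]
  refine Finset.sum_congr rfl fun q _ => ?_
  have h1 : ∑ g ∈ Finset.univ.filter (fun g : X => (g : X ⧸ H) = q), F g =
      ∑ h : H, F (q.out * h) := by
    symm
    apply Finset.sum_bij (fun (h : H) _ => q.out * (h : X))
    · intro h _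
      simp only [Finset.mem_filter, Finset.mem_univ, true_and]
      have h2 : ((q.out * (h : X) : X) : X ⧸ H) = (q.out : X ⧸ H) := by
        rw [QuotientGroup.eq]
        simp
      rw [h2]
      exact QuotientGroup.out_eq' q
    · intro a _ b _ hab
      exact Subtype.ext (mul_left_cancel hab)
    · intro g hg
      simp only [Finset.mem_filter, Finset.mem_univ, true_and] at hg
      have h3 : ((q.out : X) : X ⧸ H) = (g : X ⧸ H) := by
        rw [hg]
        exact QuotientGroup.out_eq' q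
      rw [QuotientGroup.eq] at h3
      refine ⟨⟨_, h3⟩, Finset.mem_univ _, ?_⟩
      simp
    · intro h _
      rfl
  rw [h1, Finset.sum_congr rfl fun (h : H) _ => hF q.out h h.2]
  simp [Finset.card_univ, Nat.card_eq_fintype_card]

end Schur

section Bridge

variable {K H : Type u} [Group K] [Group H] [Fintype K] [Fintype H] (f : K →* H)

theorem liftK_ofG (k : K) :
    liftK (M := M) f (ofG _ k) = ofG _ (f k) := by
  simp [liftK, ofG, MonoidAlgebra.mapDomainRingHom_apply, MonoidAlgebra.mapDomain_single]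

theorem liftK_cj (k : K) (x : MonoidAlgebra (ResidueField (localSubring M)) K) :
    liftK (M := M) f (cj k x) = cj (f k) (liftK (M := M) f x) := by
  unfold cj
  rw [map_mul, map_mul, liftK_ofG, liftK_ofG, map_inv]

end Bridge

section Abs

variable {A : Type*} [Ring A]

theorem assoc_abs {i i' w g g' : A} (hii : i * i = i) (hii' : i' * i' = i') (hw1 : i' * w * i' = w)
    (hw2 : w * (i' * (g * i * g') * i') = i') :
    (w * i' * g * i) * (i * g' * i') = i' ∧ (i * g' * i') * i' = i * g' * i' ∧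
      i' * (w * i' * g * i) = w * i' * g * i ∧ i * (i * g' * i') = i * g' * i' ∧
      (w * i' * g * i) * i = w * i' * g * i := by
  refine ⟨?_, ?_, ?_, ?_, ?_⟩
  · calc (w * i' * g * i) * (i * g' * i') = w * i' * g * (i * i) * g' * i' := by simp only [mul_assoc]
      _ = w * (i' * (g * i * g') * i') := by rw [hii]; simp only [mul_assoc]
      _ = i' := hw2
  · rw [mul_assoc, hii']
  · calc i' * (w * i' * g * i) = (i' * w * i') * g * i := by simp only [mul_assoc]
      _ = w * g * i := by rw [hw1]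
      _ = (i' * w * i') * g * i := by rw [hw1]
      _ = (i' * w * (i' * i')) * g * i := by rw [hii']
      _ = (i' * w * i') * i' * g * i := by simp only [mul_assoc]
      _ = w * i' * g * i := by rw [hw1]
  · rw [← mul_assoc, ← mul_assoc, hii]
  · rw [mul_assoc, hii]

theorem assoc_end {i i' X Y : A} (hne : i' ≠ 0)
    (hprim : (Y * X) * (Y * X) = Y * X → i * (Y * X) = Y * X → (Y * X) * i = Y * X → Y * X = 0 ∨ Y * X = i)
    (hii' : i' * i' = i') (hXY : X * Y = i') (hYi' : Y * i' = Y) (hiY : i * Y = Y) (hXi : X * i = X) :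
    Y * X = i := by
  have hf : (Y * X) * (Y * X) = Y * X := by
    calc (Y * X) * (Y * X) = Y * (X * Y) * X := by simp only [mul_assoc]
      _ = Y * X := by rw [hXY, hYi']
  rcases hprim hf (by rw [← mul_assoc, hiY]) (by rw [mul_assoc, hXi]) with h5 | h5
  · exfalso
    apply hne
    calc i' = i' * i' := hii'.symm
      _ = (X * Y) * (X * Y) := by rw [hXY]
      _ = X * (Y * X) * Y := by simp only [mul_assoc]
      _ = 0 := by rw [h5]; simp
  · exact h5

end Abs

section Uniq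

variable {P : Subgroup G}

theorem centralizer_le_normalizer' {g : G} (hg : g ∈ 𝐂[P]) : g ∈ 𝐍[P] := by
  rw [Subgroup.mem_normalizer_iff]
  intro h
  have hc : ∀ h ∈ P, g * h * g⁻¹ = h := by
    intro h hh
    rw [← (Subgroup.mem_centralizer_iff.1 hg) h hh]
    group
  constructor
  · intro hh
    rwa [hc h hh]
  · intro hh
    have h1 := hc _ hh
    have h2 : g * h * g⁻¹ = g * h * g⁻¹ := rfl
    have h3 : g * (g * h * g⁻¹) * g⁻¹ = g * h * g⁻¹ := h1
    have h4 : g * h * g⁻¹ = h := by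
      have := mul_left_cancel (a := g) (b := g * h * g⁻¹) (c := h) (by
        have h5 := congrArg (· * g) h3
        simp only [inv_mul_cancel_right] at h5
        exact h5)
      exact this
    rwa [h4] at hh

/-- **Two source idempotents are associated.** -/
theorem exists_assoc (hM : IsPModular p M) (hPp : IsPGroup p P) (hPC : P ≤ 𝐂[P])
    {i i' : MonoidAlgebra (localSubring M) G} (hi : PrimIn (SS M P ⊥) i) (hi' : PrimIn (SS M P ⊥) i')
    {j j' : MonoidAlgebra (localSubring M) 𝐂[P]}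
    (hbr : br P i = liftK 𝐂[P].subtype (red j)) (hbr' : br P i' = liftK 𝐂[P].subtype (red j'))
    (hjj' : j' * j' = j')
    {ψ : IrrCharacter 𝐂[P]}
    (hψ0 : (charDegree (ψ : 𝐂[P] → ℂ)).factorization p + (Nat.card P).factorization p =
      (Nat.card 𝐂[P]).factorization p)
    (hn : ¬ MemLocalIdeal M (chiT (ψ : 𝐂[P] → ℂ) j)) (hn' : ¬ MemLocalIdeal M (chiT (ψ : 𝐂[P] → ℂ) j')) :
    ∃ x ∈ SS M P ⊥, ∃ y ∈ SS M P ⊥, x * y = i' ∧ y * x = i := by
  classical
  have hψχ := IsIrrCharacter.isCharacter ψ.2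
  have hψc : IsClassFunction 𝐂[P] (ψ : 𝐂[P] → ℂ) := isClassFunction_of_isCharacter hψχ
  have hfinj : Function.Injective (𝐂[P].subtype) := Subgroup.subtype_injective _
  have hloc : ∀ x : MonoidAlgebra (localSubring M) 𝐂[P], MemLocalRing M (chiT (ψ : 𝐂[P] → ℂ) x) := by
    intro x
    rw [chiT_apply]
    exact memLocalRing_sum _ _ fun k _ =>
      memLocalRing_mul (x.coeff k).2 (memLocalRing_of_isIntegral (isIntegral_char hψχ k))
  set PC : Subgroup 𝐂[P] := P.subgroupOf 𝐂[P] with hPCd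
  have hcentral : ∀ π ∈ PC, ∀ y : MonoidAlgebra (localSubring M) 𝐂[P], cj π y = y := by
    intro π hπ y
    apply Cfsg.Agent.Lib.BlockResidue.ext_coeff
    intro h
    rw [coeff_cj]
    congr 1
    apply Subtype.ext
    have h1 : (h : G) * (π : G) = (π : G) * (h : G) :=
      ((Subgroup.mem_centralizer_iff.1 h.2) _ (Subgroup.mem_subgroupOf.1 hπ)).symm
    push_cast
    calc (π : G)⁻¹ * (h : G) * (π : G) = (π : G)⁻¹ * ((h : G) * (π : G)) := by group
      _ = (h : G) := by rw [h1]; group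
  -- the element `g`
  have hex : ∃ g : 𝐂[P], ¬ MemLocalIdeal M (chiT (ψ : 𝐂[P] → ℂ) (j' * cj g j)) := by
    by_contra hne
    push Not at hne
    have hinv : ∀ g, ∀ h ∈ PC, chiT (ψ : 𝐂[P] → ℂ) (j' * cj (g * h) j) = chiT (ψ : 𝐂[P] → ℂ) (j' * cj g j) := by
      intro g h hh
      rw [cj_mul, hcentral h hh]
    obtain ⟨Q, _, t, ht⟩ := exists_sum_quot PC (F := fun g => chiT (ψ : 𝐂[P] → ℂ) (j' * cj g j)) hinv
    have hS := sum_chiT_cj ψ j' j
    rw [ht] at hS
    -- the numbers
    have hdeg : charDegree (ψ : 𝐂[P] → ℂ) ≠ 0 := Cfsg.Agent.Lib.CharKernel.charDegree_ne_zero ψ.2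
    obtain ⟨r, hr⟩ := Cfsg.Agent.Lib.CharKernel.charDegree_dvd_card ψ.2
    have hC0 : Nat.card 𝐂[P] ≠ 0 := Nat.card_pos.ne'
    have hr0 : r ≠ 0 := by
      rintro rfl
      exact hC0 (by simp at hr)
    have hfac : r.factorization p = (Nat.card P).factorization p := by
      have h1 : (Nat.card 𝐂[P]).factorization p = (charDegree (ψ : 𝐂[P] → ℂ)).factorization p + r.factorization p := by
        rw [hr, Nat.factorization_mul hdeg hr0, Finsupp.add_apply]
      omega
    obtain ⟨b, hb⟩ := (IsPGroup.iff_card (p := p) (G := P)).1 hPp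
    have hfacb : r.factorization p = b := by
      rw [hfac, hb, Nat.factorization_pow, Finsupp.smul_apply, hp.out.factorization_self]
      simp
    obtain ⟨r', hr'⟩ : p ^ b ∣ r := by
      rw [← hfacb]
      exact Nat.ordProj_dvd _ _
    have hr'p : ¬ p ∣ r' := by
      intro hdvd
      have h1 : p ^ (b + 1) ∣ r := by
        rw [hr', pow_succ]
        exact Nat.mul_dvd_mul_left _ hdvd
      have h2 := (hp.out.pow_dvd_iff_le_factorization hr0).1 h1
      omega
    have hcardPC : Nat.card PC = Nat.card P := by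
      rw [hPCd]
      exact Nat.card_congr (Subgroup.subgroupOfEquivOfLe hPC).toEquiv
    have hd0 : (ψ : 𝐂[P] → ℂ) 1 ≠ 0 := by
      rw [Cfsg.Agent.Lib.CharKernel.one_eq_charDegree hψχ]
      exact_mod_cast hdeg
    have hval : ∑ q, chiT (ψ : 𝐂[P] → ℂ) (j' * cj (t q) j) =
        (r' : ℂ) * chiT (ψ : 𝐂[P] → ℂ) j' * chiT (ψ : 𝐂[P] → ℂ) j := by
      have hpb : ((p : ℂ) ^ b) ≠ 0 := pow_ne_zero _ (by exact_mod_cast hp.out.ne_zero)
      rw [hcardPC, hb] at hS
      rw [Nat.card_eq_fintype_card] at hr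
      have h1 : (Fintype.card 𝐂[P] : ℂ) / (ψ : 𝐂[P] → ℂ) 1 = (p : ℂ) ^ b * r' := by
        rw [Cfsg.Agent.Lib.CharKernel.one_eq_charDegree hψχ, hr, hr']
        push_cast
        have hdc : (charDegree (ψ : 𝐂[P] → ℂ) : ℂ) ≠ 0 := by exact_mod_cast hdeg
        field_simp
      have h2 : (Fintype.card 𝐂[P] : ℂ) * chiT (ψ : 𝐂[P] → ℂ) j' * chiT (ψ : 𝐂[P] → ℂ) j / (ψ : 𝐂[P] → ℂ) 1 =
          (p : ℂ) ^ b * ((r' : ℂ) * chiT (ψ : 𝐂[P] → ℂ) j' * chiT (ψ : 𝐂[P] → ℂ) j) := by
        calc _ = ((Fintype.card 𝐂[P] : ℂ) / (ψ : 𝐂[P] → ℂ) 1) * chiT (ψ : 𝐂[P] → ℂ) j' * chiT (ψ : 𝐂[P] → ℂ) j := by ring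
          _ = _ := by rw [h1]; ring
      rw [h2] at hS
      push_cast at hS
      exact mul_left_cancel₀ hpb hS
    have hmem : MemLocalIdeal M ((r' : ℂ) * chiT (ψ : 𝐂[P] → ℂ) j' * chiT (ψ : 𝐂[P] → ℂ) j) := by
      rw [← hval]
      exact memLocalIdeal_sum _ _ fun q _ => hne (t q)
    rcases (memLocalIdeal_mul_iff (memLocalRing_mul (memLocalRing_natCast r') (hloc j')) (hloc j)).1 hmem with h1 | h1
    · rcases (memLocalIdeal_mul_iff (memLocalRing_natCast r') (hloc j')).1 h1 with h2 | h2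
      · exact not_memLocalIdeal_natCast hM hr'p h2
      · exact hn' h2
    · exact hn h1
  obtain ⟨g, hg⟩ := hex
  have hgN : (g : G) ∈ 𝐍[P] := centralizer_le_normalizer' g.2
  have hψb := homD (H := ⊥) hM hPp (le_refl P)
  have hbot : ∀ s ∈ (⊥ : Subgroup G), (g : G) * s = s * (g : G) := by
    intro s hs
    rw [Subgroup.mem_bot] at hs
    rw [hs]
    simp
  set z := cj (g : G) i with hz
  have hzS : z ∈ SS M P ⊥ := cj_mem_SS hgN hbot hi.mem
  have hgS : ofG (localSubring M) (g : G) ∈ SS M P ⊥ := by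
    rw [mem_cen]
    rintro e (he | he)
    · have h1 := (Subgroup.mem_centralizer_iff.1 g.2) e he
      rw [← ofG_mul, ← ofG_mul, h1]
    · have : e = 1 := Subgroup.mem_bot.1 he
      rw [this]
      simp
  have hgS' : ofG (localSubring M) (g : G)⁻¹ ∈ SS M P ⊥ := by
    rw [mem_cen]
    rintro e (he | he)
    · have h1 := (Subgroup.mem_centralizer_iff.1 (𝐂[P].inv_mem g.2)) e he
      rw [← ofG_mul, ← ofG_mul, h1]
    · have : e = 1 := Subgroup.mem_bot.1 he
      rw [this]
      simp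
  have hbrz : br P z = liftK 𝐂[P].subtype (red (cj g j)) := by
    rw [hz, br_cj hgN, hbr]
    have h1 : red (cj g j) = cj g (red j) := red_conj g j
    rw [h1, liftK_cj]
    rfl
  rcases nil_or_linv (LL M G) hi' hzS with hnil | ⟨w, hwS, hw1, hw2⟩
  · exfalso
    obtain ⟨N, hN⟩ := hnil
    apply hg
    have hN' : red ((i' * z * i') ^ (N + 1)) = 0 := hN
    set y := j' * cj g j * j' with hy
    have hmemS : i' * z * i' ∈ SS M P ⊥ := (SS M P ⊥).mul_mem ((SS M P ⊥).mul_mem hi'.mem hzS) hi'.mem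
    have hbr1 : br P (i' * z * i') = liftK 𝐂[P].subtype (red y) := by
      rw [hψb.mul _ ((SS M P ⊥).mul_mem hi'.mem hzS) _ hi'.mem, hψb.mul _ hi'.mem _ hzS, hbr', hbrz, hy,
        map_mul, map_mul, map_mul, map_mul]
    have hbr2 : br P ((i' * z * i') ^ (N + 1)) = liftK 𝐂[P].subtype (red (y ^ (N + 1))) := by
      rw [hψb.pow hmemS, hbr1, map_pow, map_pow]
    have hzero : br P ((i' * z * i') ^ (N + 1)) = 0 := by
      apply Cfsg.Agent.Lib.BlockResidue.ext_coeff
      intro h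
      by_cases hh : h ∈ 𝐂[P]
      · rw [br_coeff_mem _ _ hh, ← coeff_red, hN']
      · rw [br_coeff_not_mem _ _ hh]
        rfl
    rw [hzero] at hbr2
    have hred0 : red (y ^ (N + 1)) = 0 := by
      apply liftK_injective (M := M) hfinj
      rw [← hbr2, map_zero]
    have h3 := chiT_mem_of_nil hψχ hred0
    have h4 : chiT (ψ : 𝐂[P] → ℂ) y = chiT (ψ : 𝐂[P] → ℂ) (j' * cj g j) := by
      rw [hy, chiT_mul_comm hψc, ← mul_assoc, hjj']
    rwa [h4] at h3
  · have hz' : z = ofG (localSubring M) (g : G) * i * ofG (localSubring M) (g : G)⁻¹ := rfl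
    rw [hz'] at hw2
    obtain ⟨hXY, hYi', hi'X, hiY, hXi⟩ := assoc_abs hi.idem hi'.idem hw1 hw2
    refine ⟨w * i' * ofG (localSubring M) (g : G) * i,
      (SS M P ⊥).mul_mem ((SS M P ⊥).mul_mem ((SS M P ⊥).mul_mem hwS hi'.mem) hgS) hi.mem,
      i * ofG (localSubring M) (g : G)⁻¹ * i',
      (SS M P ⊥).mul_mem ((SS M P ⊥).mul_mem hi.mem hgS') hi'.mem, hXY, ?_⟩
    have hXS : w * i' * ofG (localSubring M) (g : G) * i ∈ SS M P ⊥ :=
      (SS M P ⊥).mul_mem ((SS M P ⊥).mul_mem ((SS M P ⊥).mul_mem hwS hi'.mem) hgS) hi.mem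
    have hYS : i * ofG (localSubring M) (g : G)⁻¹ * i' ∈ SS M P ⊥ :=
      (SS M P ⊥).mul_mem ((SS M P ⊥).mul_mem hi.mem hgS') hi'.mem
    exact assoc_end hi'.ne (fun hf h1 h2 => hi.prim _ ((SS M P ⊥).mul_mem hYS hXS) hf h1 h2) hi'.idem
      hXY hYi' hiY hXi

end Uniq

end Cfsg.Agent.Lib.BFSrc
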