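import Mathlib
import Cfsg.Agent.Lib.BFSrc
import Cfsg.Agent.Lib.BrauerIn
import Cfsg.Agent.Lib.BrauerCorr

/-!
# Columns of generalized decomposition numbers when the inertial quotient acts freely
-/

set_option autoImplicit false
set_option linter.unusedSectionVars false
set_option linter.unusedVariables false
set_option linter.style.haveILetI false

namespace Cfsg.Agent.Lib.BFCol

open Polynomial IsLocalRing Cfsg Cfsg.Agent.Lib.StarFit Cfsg.Agent.Lib.StarGrp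
open Cfsg.Agent.Lib.StarLoc Cfsg.Agent.Lib.BlockLocal Cfsg.Agent.Lib.BlockCover
open Cfsg.Agent.Lib.BlockResidue Cfsg.Agent.Lib.BrauerMap Cfsg.Agent.Lib.BrauerPair
open Cfsg.Agent.Lib.BrauerSub Cfsg.Agent.Lib.BlockIdem Cfsg.Agent.Lib.CharIntegrality
open Cfsg.Agent.Lib.BlkBasic Cfsg.Agent.Lib.StarBlk Cfsg.Agent.Lib.StarP Cfsg.Agent.Lib.StarTh
open Cfsg.Agent.Lib.StarFit.LocSys Cfsg.Agent.Lib.GenChar Cfsg.Agent.Lib.CharBasic
open Cfsg.Agent.Lib.CharInd Cfsg.Agent.Lib.StarGen Cfsg.Agent.Lib.BrauerConj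
open Cfsg.Agent.Lib.BrauerCen Cfsg.Agent.Lib.BrauerMax Cfsg.Agent.Lib.StarII
open Cfsg.Agent.Lib.StarGlob Cfsg.Agent.Lib.BlockOrtho Cfsg.Agent.Lib.StarInner
open Cfsg.Agent.Lib.BFNorm Cfsg.Agent.Lib.BFSrc Cfsg.Agent.Lib.StarNil
open Cfsg.Agent.Lib.BrauerNil Cfsg.Agent.Lib.BrauerStab Cfsg.Agent.Lib.BrauerSat
open scoped ComplexConjugate

universe u

section Trans

variable {K₁ K₂ : Type u} [Group K₁] [Group K₂] [Fintype K₁] [Fintype K₂]

theorem classInner_twistE (σ : K₁ ≃* K₂) (F : K₂ → ℂ) (ζ : IrrCharacter K₁) :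
    classInner F (twistE σ ζ : K₂ → ℂ) = classInner (fun y => F (σ y)) (ζ : K₁ → ℂ) := by
  unfold classInner
  rw [Nat.card_congr σ.toEquiv]
  congr 1
  symm
  refine Fintype.sum_equiv σ.toEquiv _ _ fun y => ?_
  simp [twistE_apply]

/-- The block projection under an isomorphism. -/
theorem blockProj_twistSetE (σ : K₁ ≃* K₂) (f : Set (IrrCharacter K₁)) (F : K₂ → ℂ) (y : K₂) :
    blockProj (twistSetE σ f) F y = blockProj f (fun k => F (σ k)) (σ.symm y) := by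
  classical
  unfold blockProj
  symm
  let τ : IrrCharacter K₁ ≃ IrrCharacter K₂ :=
    { toFun := twistE σ
      invFun := twistE σ.symm
      left_inv := twistE_twistE_symm σ
      right_inv := twistE_symm_twistE σ }
  refine Fintype.sum_equiv τ _ _ fun ζ => ?_
  show indB f ζ * (classInner (fun k => F (σ k)) (ζ : K₁ → ℂ) * (ζ : K₁ → ℂ) (σ.symm y)) =
    indB (twistSetE σ f) (twistE σ ζ) * (classInner F (twistE σ ζ : K₂ → ℂ) * (twistE σ ζ : K₂ → ℂ) y)
  rw [classInner_twistE, twistE_apply]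
  congr 1
  by_cases h : ζ ∈ f
  · rw [indB_of_mem h, indB_of_mem ((mem_twistSetE_iff σ f ζ).2 h)]
  · rw [indB_of_not_mem h, indB_of_not_mem (fun h2 => h ((mem_twistSetE_iff σ f ζ).1 h2))]

end Trans

/-- The coefficient of a class function on a nilpotent block. -/
noncomputable def cF {X : Type u} [Group X] [Fintype X] (f : Set (IrrCharacter X)) (F : X → ℂ) : ℂ :=
  ∑ ζ : IrrCharacter X, indB f ζ * classInner F (ζ : X → ℂ)

theorem blockProj_of_const {X : Type u} [Group X] [Fintype X] {p : ℕ} {f : Set (IrrCharacter X)} {ψ : X → ℂ}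
    (h : ∀ ζ ∈ f, ∀ y, ¬ p ∣ orderOf y → (ζ : X → ℂ) y = ψ y) (F : X → ℂ) {y : X} (hy : ¬ p ∣ orderOf y) :
    blockProj f F y = cF f F * ψ y := by
  classical
  unfold blockProj cF
  rw [Finset.sum_mul]
  refine Finset.sum_congr rfl fun ζ _ => ?_
  by_cases hζ : ζ ∈ f
  · rw [h ζ hζ y hy]
    ring
  · rw [indB_of_not_mem hζ]
    ring

variable {G : Type u} [Group G] [Fintype G] {p : ℕ} [hp : Fact p.Prime] {M : Ideal AlgInt}
  [hMp : M.IsPrime]

local notation "𝐂[" R "]" => Subgroup.centralizer ((R : Subgroup G) : Set G)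
local notation "𝐍[" R "]" => Subgroup.normalizer ((R : Subgroup G) : Set G)
local notation Q "^^" x => Subgroup.map (MulEquiv.toMonoidHom (MulAut.conj (x : G))) (Q : Subgroup G)

noncomputable local instance fintypeSubBFC {A : Type*} [Group A] [Finite A] (K : Subgroup A) : Fintype K :=
  Fintype.ofFinite K

section Fus

variable {P : Subgroup G} {e : Set (IrrCharacter (Subgroup.centralizer (P : Set G)))} {B : Set (IrrCharacter G)} {T : Subgroup G}

theorem cp_self_of_T (he : IsBrauerPair p M P e)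
    (hT : ∀ g : G, g ∈ T ↔ (g ∈ 𝐍[P] ∧ StabilizesBlock 𝐂[P] e g)) {t : G} (ht : t ∈ T) :
    cp t ⟨P, e⟩ = ⟨P, e⟩ := by
  obtain ⟨h1, h2⟩ := (hT t).1 ht
  rw [cp_of_normalizer h1 (normalizer_le_normalizer_centralizer P h1), twistSet_eq_of_stabilizes he.2 h2]

theorem cp_self_of_cen {Q : Subgroup G} {f : Set (IrrCharacter 𝐂[Q])} (hf : IsPBlock M f) {k : G}
    (hk : k ∈ 𝐂[Q]) : cp k ⟨Q, f⟩ = ⟨Q, f⟩ := by
  have h1 : k ∈ 𝐍[Q] := mem_normalizer_of_mem_centralizer hk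
  rw [cp_of_normalizer h1 (normalizer_le_normalizer_centralizer Q h1),
    twistSet_eq_of_stabilizes hf (stabilizes_of_mem_centralizer hk f)]

theorem conj_mem_of_T (hT : ∀ g : G, g ∈ T ↔ (g ∈ 𝐍[P] ∧ StabilizesBlock 𝐂[P] e g)) {t : G} (ht : t ∈ T)
    (w : P) : t * (w : G) * t⁻¹ ∈ P :=
  (Subgroup.mem_normalizer_iff.1 ((hT t).1 ht).1 _).1 w.2

/-- Conjugation by an element of the stabilizer permutes the pairs below `(P, e)`. -/
theorem act_idxP_T (hM : IsPModular p M) (he : IsBrauerPair p M P e)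
    (hT : ∀ g : G, g ∈ T ↔ (g ∈ 𝐍[P] ∧ StabilizesBlock 𝐂[P] e g)) {t : G} (ht : t ∈ T) (w : P) :
    act t (idxP hM he w) = idxP hM he ⟨t * (w : G) * t⁻¹, conj_mem_of_T hT ht w⟩ := by
  have h1 : W2 p M P e (idxP hM he w) t := by
    have h2 := relationCp hM t (bw_spec hM he w)
    rw [cp_self_of_T he hT ht] at h2
    exact h2
  have h3 : W2 p M P e (act t (idxP hM he w)) 1 := by
    have := (W2_act (p := p) (P := P) (e := e) t (idxP hM he w) t).2 h1
    rwa [mul_inv_cancel] at this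
  obtain ⟨w', hw'⟩ := exists_idxP_eq hM he h3
  have h4 : w' = ⟨t * (w : G) * t⁻¹, conj_mem_of_T hT ht w⟩ := by
    apply Subtype.ext
    have := congrArg Sigma.fst hw'
    simpa [act_fst, idxP] using this
  rw [← hw', h4]

theorem cc_conj_T (hM : IsPModular p M) (he : IsBrauerPair p M P e)
    (hT : ∀ g : G, g ∈ T ↔ (g ∈ 𝐍[P] ∧ StabilizesBlock 𝐂[P] e g)) {χ χ' : G → ℂ}
    (hχ : IsClassFunction G χ) (hχ' : IsClassFunction G χ') {t : G} (ht : t ∈ T) (w : P) :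
    cc hM he χ χ' ⟨t * (w : G) * t⁻¹, conj_mem_of_T hT ht w⟩ = cc hM he χ χ' w := by
  unfold cc
  rw [← act_idxP_T hM he hT ht, Wsum_act hχ hχ', NN_act]

/-- Elements conjugating a pair below `(P, e)`. -/
theorem W2_idxP_iff (hM : IsPModular p M) (hmax : IsMaximalBrauerPair p M B P e)
    (hab : ∀ x ∈ P, ∀ y ∈ P, x * y = y * x)
    (hT : ∀ g : G, g ∈ T ↔ (g ∈ 𝐍[P] ∧ StabilizesBlock 𝐂[P] e g)) (w : P) (g : G) :
    W2 p M P e (idxP hM hmax.1.1 w) g ↔ ∃ t ∈ T, ∃ k ∈ 𝐂[Subgroup.zpowers (w : G)], g = t * k := by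
  have he := hmax.1.1
  constructor
  · intro h
    have hF := isBlockFusionSystemOn_blockFusion hM hmax
    obtain ⟨z, hzN, hzs, hz⟩ := abelian_extend hM hF hab (bw_spec hM he w) h
    refine ⟨z, (hT z).2 ⟨hzN, hzs⟩, z⁻¹ * g, ?_, by group⟩
    rw [Subgroup.mem_centralizer_iff]
    intro q hq
    have h4 := hz q hq
    calc q * (z⁻¹ * g) = z⁻¹ * (z * q * z⁻¹) * g := by group
      _ = z⁻¹ * (g * q * g⁻¹) * g := by rw [h4]
      _ = z⁻¹ * g * q := by group
  · rintro ⟨t, ht, k, hk, rfl⟩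
    have h2 := relationCp hM t (bw_spec hM he w)
    rw [cp_self_of_T he hT ht] at h2
    show Relation.ReflTransGen _ (cp (t * k) ⟨Subgroup.zpowers (w : G), (bw hM he w).1⟩) _
    rw [cp_mul, cp_self_of_cen (bw hM he w).2 hk]
    exact h2

/-- The count of conjugating elements. -/
theorem NN_idxP (hM : IsPModular p M) (hmax : IsMaximalBrauerPair p M B P e)
    (hab : ∀ x ∈ P, ∀ y ∈ P, x * y = y * x)
    (hT : ∀ g : G, g ∈ T ↔ (g ∈ 𝐍[P] ∧ StabilizesBlock 𝐂[P] e g)) (w : P)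
    (hTK : ∀ t ∈ T, t ∈ 𝐂[Subgroup.zpowers (w : G)] → t ∈ 𝐂[P]) :
    NN p M P e (idxP hM hmax.1.1 w) = (𝐂[P]).relIndex T * Nat.card 𝐂[Subgroup.zpowers (w : G)] := by
  classical
  have hCK : 𝐂[P] ≤ 𝐂[Subgroup.zpowers (w : G)] := Subgroup.centralizer_le (zp_le_of_mem w)
  obtain ⟨hPT, hCT, hTN⟩ := stab_facts hT
  set A : Subgroup T := (𝐂[P]).subgroupOf T with hA
  letI : Fintype (T ⧸ A) := Fintype.ofFinite _
  set K := 𝐂[Subgroup.zpowers (w : G)] with hK
  have h1 : (Finset.univ : Finset ((T ⧸ A) × K)).card = NN p M P e (idxP hM hmax.1.1 w) := by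
    unfold NN
    apply Finset.card_bij (fun x _ => (((Quotient.out x.1 : T) : G)) * (x.2 : G))
    · intro x _
      simp only [Finset.mem_filter, Finset.mem_univ, true_and]
      rw [W2_idxP_iff hM hmax hab hT]
      exact ⟨_, (Quotient.out x.1 : T).2, _, x.2.2, rfl⟩
    · rintro ⟨q₁, k₁⟩ _ ⟨q₂, k₂⟩ _ h
      simp only at h
      have h2 : ((Quotient.out q₂ : T) : G)⁻¹ * ((Quotient.out q₁ : T) : G) = (k₂ : G) * (k₁ : G)⁻¹ := by
        calc _ = ((Quotient.out q₂ : T) : G)⁻¹ * (((Quotient.out q₁ : T) : G) * (k₁ : G)) * (k₁ : G)⁻¹ := by group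
          _ = ((Quotient.out q₂ : T) : G)⁻¹ * (((Quotient.out q₂ : T) : G) * (k₂ : G)) * (k₁ : G)⁻¹ := by rw [h]
          _ = _ := by group
      have h3 : (Quotient.out q₂ : T)⁻¹ * (Quotient.out q₁ : T) ∈ A := by
        apply Subgroup.mem_subgroupOf.2
        apply hTK _ (T.mul_mem (T.inv_mem (Quotient.out q₂ : T).2) (Quotient.out q₁ : T).2)
        push_cast
        rw [h2]
        exact K.mul_mem k₂.2 (K.inv_mem k₁.2)
      have h4 : ((Quotient.out q₂ : T) : T ⧸ A) = ((Quotient.out q₁ : T) : T ⧸ A) := by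
        rw [QuotientGroup.eq]
        exact h3
      have h5 : q₂ = q₁ := by
        rw [QuotientGroup.out_eq', QuotientGroup.out_eq'] at h4
        exact h4
      subst h5
      have h6 : k₁ = k₂ := Subtype.ext (mul_left_cancel h)
      rw [h6]
    · intro g hg
      simp only [Finset.mem_filter, Finset.mem_univ, true_and] at hg
      rw [W2_idxP_iff hM hmax hab hT] at hg
      obtain ⟨t, ht, k, hk, rfl⟩ := hg
      obtain ⟨c, hc⟩ := QuotientGroup.mk_out_eq_mul A (⟨t, ht⟩ : T)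
      have hcm : ((c : T) : G) ∈ 𝐂[P] := Subgroup.mem_subgroupOf.1 c.2
      have hout : ((Quotient.out ((⟨t, ht⟩ : T) : T ⧸ A) : T) : G) = t * ((c : T) : G) := by
        have := congrArg (Subtype.val) hc
        simpa using this
      refine ⟨(((⟨t, ht⟩ : T) : T ⧸ A), ⟨((c : T) : G)⁻¹ * k, K.mul_mem (K.inv_mem (hCK hcm)) hk⟩),
        Finset.mem_univ _, ?_⟩
      simp only
      rw [hout]
      group
  rw [← h1, Finset.card_univ, Fintype.card_prod]
  congr 1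
  · unfold Subgroup.relIndex Subgroup.index
    rw [Nat.card_eq_fintype_card]
  · rw [Nat.card_eq_fintype_card]

open Classical in
/-- The sum over a section when the block has one regular function. -/
theorem Wsum_of_const {u : G} (hu : ∃ k : ℕ, orderOf u = p ^ k) (b : BlockT M 𝐂[Subgroup.zpowers u])
    {ψ' : 𝐂[Subgroup.zpowers u] → ℂ} {c : (𝐂[Subgroup.zpowers u] → ℂ) → ℂ}
    (hb : ∀ F, IsClassFunction 𝐂[Subgroup.zpowers u] F → ∀ s, ¬ p ∣ orderOf s → blockProj b.1 F s = c F * ψ' s)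
    {χ χ' : G → ℂ} (hχ : IsClassFunction G χ) (hχ' : IsClassFunction G χ') :
    Wsum p χ χ' ⟨u, b⟩ = c (shiftF u χ) * conj (c (shiftF u χ')) *
      ∑ s, pRegularPart p (fun s => ψ' s * conj (ψ' s)) s := by
  unfold Wsum
  simp only
  rw [sum_filter_pp hu, Finset.mul_sum]
  refine Finset.sum_congr rfl fun s _ => ?_
  by_cases hs : p ∣ orderOf s
  · rw [pRegularPart_of_sing _ hs, pRegularPart_of_sing _ hs, mul_zero]
  · rw [pRegularPart_of_reg _ hs, pRegularPart_of_reg _ hs]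
    show chiT χ (ofG (localSubring M) (u * s) * eB _ b) * conj (chiT χ' (ofG (localSubring M) (u * s) * eB _ b)) = _
    rw [chiT_eB_eq u χ hχ b s, chiT_eB_eq u χ' hχ' b s, hb _ (shiftF_isClass u hχ) s hs,
      hb _ (shiftF_isClass u hχ') s hs, map_mul]
    ring

/-- The formula for `cc`. -/
theorem cc_of_const (hM : IsPModular p M) (hmax : IsMaximalBrauerPair p M B P e)
    (hab : ∀ x ∈ P, ∀ y ∈ P, x * y = y * x)
    (hT : ∀ g : G, g ∈ T ↔ (g ∈ 𝐍[P] ∧ StabilizesBlock 𝐂[P] e g)) (w : P)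
    (hTK : ∀ t ∈ T, t ∈ 𝐂[Subgroup.zpowers (w : G)] → t ∈ 𝐂[P])
    {ψ' : 𝐂[Subgroup.zpowers (w : G)] → ℂ} {c : (𝐂[Subgroup.zpowers (w : G)] → ℂ) → ℂ}
    (hb : ∀ F, IsClassFunction 𝐂[Subgroup.zpowers (w : G)] F → ∀ s, ¬ p ∣ orderOf s →
      blockProj (bw hM hmax.1.1 w).1 F s = c F * ψ' s)
    {χ χ' : G → ℂ} (hχ : IsClassFunction G χ) (hχ' : IsClassFunction G χ') :
    cc hM hmax.1.1 χ χ' w = c (shiftF (w : G) χ) * conj (c (shiftF (w : G) χ')) *
      (∑ s, pRegularPart p (fun s => ψ' s * conj (ψ' s)) s) /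
      (((𝐂[P]).relIndex T * Nat.card 𝐂[Subgroup.zpowers (w : G)] : ℕ) : ℂ) := by
  have hPp : IsPGroup p P := hmax.1.1.1
  obtain ⟨k, hk⟩ := (IsPGroup.iff_card.1 (hPp.to_le (zp_le_of_mem w)))
  have hu : ∃ k : ℕ, orderOf (w : G) = p ^ k := ⟨k, by rw [← Nat.card_zpowers]; exact hk⟩
  unfold cc
  rw [NN_idxP hM hmax hab hT w hTK]
  congr 1
  exact Wsum_of_const hu (bw hM hmax.1.1 w) hb hχ hχ'

end Fus

section RegSum

variable {P : Subgroup G} {e : Set (IrrCharacter (Subgroup.centralizer (P : Set G)))} {B : Set (IrrCharacter G)}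

/-- The norm of the regular part of a height zero character of a nilpotent block. -/
theorem sum_reg_sq (hM : IsPModular p M) (hmax : IsMaximalBrauerPair p M B P e)
    (hnil : IsNilpotentBlock p M B) {χ₀ : IrrCharacter G} (hχ₀ : χ₀ ∈ B)
    (h0 : (charDegree (χ₀ : G → ℂ)).factorization p = Cfsg.Agent.Lib.BlockQ.minExp p B) :
    ∑ s, pRegularPart p (fun s => (χ₀ : G → ℂ) s * conj ((χ₀ : G → ℂ) s)) s =
      (Nat.card G : ℂ) / (Nat.card P : ℂ) := by
  classical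
  have h1 := cc_eq_inv_card hM hmax hnil hχ₀ h0 1
  rw [cc_one hM hmax hχ₀ hχ₀] at h1
  unfold classInner at h1
  have hG : (Nat.card G : ℂ) ≠ 0 := by exact_mod_cast Nat.card_pos.ne'
  have h2 : ∑ s, pRegularPart p (fun s => (χ₀ : G → ℂ) s * conj ((χ₀ : G → ℂ) s)) s =
      ∑ s, pRegularPart p (χ₀ : G → ℂ) s * conj ((χ₀ : G → ℂ) s) := by
    refine Finset.sum_congr rfl fun s _ => ?_
    by_cases hs : p ∣ orderOf s
    · rw [pRegularPart_of_sing _ hs, pRegularPart_of_sing _ hs, zero_mul]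
    · rw [pRegularPart_of_reg _ hs, pRegularPart_of_reg _ hs]
  rw [h2]
  field_simp at h1 ⊢
  linear_combination h1

end RegSum

end Cfsg.Agent.Lib.BFCol
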