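import Mathlib
import Cfsg.Agent.Lib.BFCol
import Cfsg.Agent.Lib.BrauerCyc
import Cfsg.Agent.Lib.BSWAb

/-!
# Levels of a source idempotent
-/

set_option autoImplicit false
set_option linter.unusedSectionVars false
set_option linter.unusedVariables false
set_option linter.style.haveILetI false

namespace Cfsg.Agent.Lib.BFLevel

open Polynomial IsLocalRing Cfsg Cfsg.Agent.Lib.StarFit Cfsg.Agent.Lib.StarGrp
open Cfsg.Agent.Lib.StarLoc Cfsg.Agent.Lib.BlockLocal Cfsg.Agent.Lib.BlockCover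
open Cfsg.Agent.Lib.BlockResidue Cfsg.Agent.Lib.BrauerMap Cfsg.Agent.Lib.BrauerPair
open Cfsg.Agent.Lib.BrauerSub Cfsg.Agent.Lib.BlockIdem Cfsg.Agent.Lib.CharIntegrality
open Cfsg.Agent.Lib.BlkBasic Cfsg.Agent.Lib.StarBlk Cfsg.Agent.Lib.StarP Cfsg.Agent.Lib.StarTh
open Cfsg.Agent.Lib.StarFit.LocSys Cfsg.Agent.Lib.GenChar Cfsg.Agent.Lib.CharBasic
open Cfsg.Agent.Lib.CharInd Cfsg.Agent.Lib.StarGen Cfsg.Agent.Lib.BrauerConj
open Cfsg.Agent.Lib.BrauerCen Cfsg.Agent.Lib.BrauerMax Cfsg.Agent.Lib.StarII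
open Cfsg.Agent.Lib.StarGlob Cfsg.Agent.Lib.BlockOrtho Cfsg.Agent.Lib.StarInner
open Cfsg.Agent.Lib.BFNorm Cfsg.Agent.Lib.BFSrc Cfsg.Agent.Lib.StarNil Cfsg.Agent.Lib.BFCol
open Cfsg.Agent.Lib.BrauerNil Cfsg.Agent.Lib.BrauerStab Cfsg.Agent.Lib.BrauerSat
open Cfsg.Agent.Lib.BrauerIn Cfsg.Agent.Lib.BrauerCorr Cfsg.Agent.Lib.BrauerCyc
open Cfsg.Agent.Lib.BrauerLift
open scoped ComplexConjugate

universe u

variable {G : Type u} [Group G] [Fintype G] {p : ℕ} [hp : Fact p.Prime] {M : Ideal AlgInt}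
  [hMp : M.IsPrime]

local notation "𝐂[" R "]" => Subgroup.centralizer ((R : Subgroup G) : Set G)
local notation "𝐍[" R "]" => Subgroup.normalizer ((R : Subgroup G) : Set G)
local notation Q "^^" x => Subgroup.map (MulEquiv.toMonoidHom (MulAut.conj (x : G))) (Q : Subgroup G)

noncomputable local instance fintypeSubBFL {A : Type*} [Group A] [Finite A] (K : Subgroup A) : Fintype K :=
  Fintype.ofFinite K

/-- The setup. -/
structure FS (p : ℕ) (M : Ideal AlgInt) [M.IsPrime] (B : Set (IrrCharacter G)) (P : Subgroup G)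
    (c : BlockT M 𝐂[P]) (T : Subgroup G) : Prop where
  hM : IsPModular p M
  hPD : IsDefectGroup p M B P
  hmax : IsMaximalBrauerPair p M B P c.1
  hab : ∀ x ∈ P, ∀ y ∈ P, x * y = y * x
  hT : ∀ g : G, g ∈ T ↔ (g ∈ 𝐍[P] ∧ StabilizesBlock 𝐂[P] c.1 g)
  hfree : ∀ g ∈ T, ∀ x ∈ P, x ≠ 1 → g * x * g⁻¹ = x → g ∈ 𝐂[P]

variable {B : Set (IrrCharacter G)} {P : Subgroup G} {c : BlockT M (Subgroup.centralizer (P : Set G))} {T : Subgroup G}

theorem FS.hPp (h : FS p M B P c T) : IsPGroup p P := h.hmax.1.1.1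

theorem FS.hPC (h : FS p M B P c T) {Q : Subgroup G} (hQP : Q ≤ P) : P ≤ 𝐂[Q] := by
  intro x hx
  rw [Subgroup.mem_centralizer_iff]
  intro q hq
  exact h.hab q (hQP hq) x hx

/-- The block part of a level. -/
structure IsBlockLevel (P : Subgroup G) (c : BlockT M 𝐂[P]) {Q : Subgroup G} (hQP : Q ≤ P) (hPC : P ≤ 𝐂[Q])
    (f : BlockT M 𝐂[Q]) (ψ : IrrCharacter 𝐂[Q]) : Prop where
  norm : IsNormalSubpair p M Q f.1 P c.1
  max : IsMaximalBrauerPair p M f.1 (P.subgroupOf 𝐂[Q]) (twistSetE (cenMatch_in hQP hPC).iso.symm c.1)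
  nil : IsNilpotentBlock p M f.1
  mem : ψ ∈ f.1
  h0 : (charDegree (ψ : 𝐂[Q] → ℂ)).factorization p = Cfsg.Agent.Lib.BlockQ.minExp p f.1
  const : ∀ ζ ∈ f.1, ∀ y, ¬ p ∣ orderOf y → (ζ : 𝐂[Q] → ℂ) y = (ψ : 𝐂[Q] → ℂ) y

theorem exists_isBlockLevel (h : FS p M B P c T) {Q : Subgroup G} (hQP : Q ≤ P) (hQ1 : Q ≠ ⊥) :
    ∃ (f : BlockT M 𝐂[Q]) (ψ : IrrCharacter 𝐂[Q]), IsBlockLevel (p := p) P c hQP (h.hPC hQP) f ψ := by
  classical
  have hM := h.hM
  have hPp := h.hPp
  have hPC := h.hPC hQP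
  have hcB := h.hmax.1
  obtain ⟨f, hf⟩ := exists_isInducedBlockIn hM hPp hQP hPC c.2
  have hbp := isBrauerPairOf_in hM hPp hQP hPC hf
  have hn := isNormalSubpair_of_in hPp hQP hPC hbp hcB.1.2 hf.2.1
  have hmax' := isMaximal_in hM h.hPD hQP hPC hcB hbp hf.2.1
  set m := cenMatch_in hQP hPC with hm
  have habH : ∀ x ∈ P.subgroupOf 𝐂[Q], ∀ y ∈ P.subgroupOf 𝐂[Q], x * y = y * x := by
    intro x hx y hy
    apply Subtype.ext
    exact h.hab _ (Subgroup.mem_subgroupOf.1 hx) _ (Subgroup.mem_subgroupOf.1 hy)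
  have hnil : IsNilpotentBlock p M f := by
    refine (isNilpotentBlock_iff_of_abelian hM hmax' habH).2 fun x hxN hxs => ?_
    have hxN' : (x : G) ∈ 𝐍[P] := by
      apply mem_normalizer_of_conj_le_cyc
      intro s hs
      have h1 := (Subgroup.mem_normalizer_iff.1 hxN ⟨s, hPC hs⟩).1 (Subgroup.mem_subgroupOf.2 hs)
      exact Subgroup.mem_subgroupOf.1 h1
    have hxs' := m.stabilizes_of_hat hxs
    rw [m.twistSetE_symm] at hxs'
    apply (m.iff x).2
    obtain ⟨⟨r, hrQ⟩, hr1⟩ := (Subgroup.ne_bot_iff_exists_ne_one).1 hQ1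
    refine h.hfree _ ((h.hT _).2 ⟨hxN', hxs'⟩) r (hQP hrQ) (fun h1 => hr1 (Subtype.ext h1)) ?_
    rw [← (Subgroup.mem_centralizer_iff.1 x.2) r hrQ]
    group
  obtain ⟨ψ, hψ, h0, Φ, hΦ⟩ := nil_structure hM hmax' hnil
  haveI : Fintype (P.subgroupOf 𝐂[Q]) := inferInstance
  have hcomm : ∀ a b : (P.subgroupOf 𝐂[Q]), a * b = b * a := fun a b =>
    Subtype.ext (habH _ a.2 _ b.2)
  refine ⟨⟨f, hf.2.1⟩, ψ, hn, hmax', hnil, hψ, h0, fun ζ hζ y hy => ?_⟩
  obtain ⟨α, hα⟩ := Φ.surjective ⟨ζ, hζ⟩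
  have h1 := hΦ α y hy
  rw [hα, Cfsg.Agent.Lib.BSWAb.deg_one hcomm, one_mul] at h1
  exact h1

section Lift

variable {K H : Type u} [Group K] [Group H] [Fintype K] [Fintype H]

end Lift

/-- Block idempotents as elements of the group algebra of the group. -/
theorem eB_eq_lift (K : Subgroup G) (F : BlockT M K) : eB K F = liftA K.subtype (eG F.1 F.2) := by
  classical
  apply coeF_injective
  funext g
  rw [coeF_eB, subgroupBlockCoeff_eq_ext0]
  by_cases hg : g ∈ K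
  · have h1 := coeff_map_apply (f := K.subtype) (Subgroup.subtype_injective K) (eG F.1 F.2) ⟨g, hg⟩
    have h2 : ext0 K (blockCoeff F.1) g = blockCoeff F.1 ⟨g, hg⟩ := ext0_of_mem _ _ hg
    rw [h2]
    show _ = ((liftA K.subtype (eG F.1 F.2)).coeff g : ℂ)
    have h3 : (liftA K.subtype (eG F.1 F.2)).coeff (K.subtype ⟨g, hg⟩) = (eG F.1 F.2).coeff ⟨g, hg⟩ := h1
    have h4 : K.subtype ⟨g, hg⟩ = g := rfl
    rw [h4] at h3
    rw [h3]
    have h5 := congrFun (coeF_eG F.1 F.2) ⟨g, hg⟩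
    exact h5.symm
  · rw [ext0_of_not_mem _ _ hg]
    have h1 : g ∉ Set.range K.subtype := by
      rintro ⟨k, rfl⟩
      exact hg k.2
    have h2 := coeff_map_not (R := localSubring M) (f := K.subtype) (eG F.1 F.2) h1
    show _ = ((liftA K.subtype (eG F.1 F.2)).coeff g : ℂ)
    rw [show (liftA K.subtype (eG F.1 F.2)).coeff g = 0 from h2]
    rfl

/-- The idempotent part of a level. -/
structure IsIdemLevel (P Q : Subgroup G) (f : BlockT M 𝐂[Q]) (i : MonoidAlgebra (localSubring M) G)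
    (j : MonoidAlgebra (localSubring M) 𝐂[Q]) : Prop where
  idem : j * j = j
  cen : j ∈ cen (localSubring M) {e : 𝐂[Q] | (e : G) ∈ P}
  br : br Q i = liftK 𝐂[Q].subtype (red j)
  blk : red j * red (eG f.1 f.2) = red j

theorem exists_isIdemLevel (h : FS p M B P c T) {i : MonoidAlgebra (localSubring M) G}
    (hi : PrimIn (SS M P ⊥) i) (hne : br P i ≠ 0) (hbk : br P i * bb P c = br P i) {Q : Subgroup G} (hQP : Q ≤ P)
    (f : BlockT M 𝐂[Q]) (hf : IsNormalSubpair p M Q f.1 P c.1) :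
    ∃ j, IsIdemLevel P Q f i j := by
  classical
  have hM := h.hM
  have hPp := h.hPp
  have hfinj : Function.Injective (𝐂[Q].subtype) := Subgroup.subtype_injective _
  have hbot : ∀ τ ∈ P, ∀ s ∈ (⊥ : Subgroup G), τ * s = s * τ := by
    intro τ _ s hs
    rw [Subgroup.mem_bot] at hs
    rw [hs]
    simp
  have hHp : ∀ s ∈ (⊥ : Subgroup G), ¬ p ∣ orderOf s := by
    intro s hs
    rw [Subgroup.mem_bot] at hs
    rw [hs, orderOf_one]
    exact fun h1 => hp.out.one_lt.ne' (Nat.dvd_one.1 h1)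
  have hiP := SS_left hi.mem
  have hiQ : i ∈ cen (localSubring M) (Q : Set G) := cen_anti hQP hiP
  obtain ⟨j, hjj, hjc, hjb⟩ := exists_level hM hfinj (D := Q) (hPp.to_le hQP)
    (by intro g; simp) hiQ hi.idem {e : 𝐂[Q] | (e : G) ∈ P} (by
      apply cen_anti _ hiP
      rintro _ ⟨e, he, rfl⟩
      exact he)
  refine ⟨j, hjj, hjc, hjb, ?_⟩
  have h1 := local_below hM hHp _ P rfl hPp hbot i c hi hne hbk Q f hQP (subpairLE_of_normal hf)
  rw [bb_eq, eB_eq_lift, red_liftA hfinj, hjb, ← map_mul] at h1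
  exact liftK_injective (M := M) hfinj h1

section Values

variable {Q : Subgroup G} {hQP : Q ≤ P} {hPC : P ≤ Subgroup.centralizer (Q : Set G)}
  {f : BlockT M (Subgroup.centralizer (Q : Set G))} {ψ : IrrCharacter (Subgroup.centralizer (Q : Set G))}
  {i : MonoidAlgebra (localSubring M) G} {j : MonoidAlgebra (localSubring M) (Subgroup.centralizer (Q : Set G))}

theorem IsBlockLevel.chiT_eq (L : IsBlockLevel (p := p) P c hQP hPC f ψ) (J : IsIdemLevel P Q f i j)
    (hM : IsPModular p M) {F : 𝐂[Q] → ℂ} (hF : IsClassFunction 𝐂[Q] F) :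
    chiT F j = cF f.1 F * chiT (ψ : 𝐂[Q] → ℂ) j :=
  chiT_of_block hM f.2 J.idem J.blk hF (isClassFunction_of_isCharacter (IsIrrCharacter.isCharacter ψ.2))
    (fun y hy => blockProj_of_const L.const F hy)

theorem card_subgroupOf (hPC : P ≤ 𝐂[Q]) : Nat.card (P.subgroupOf 𝐂[Q]) = Nat.card P :=
  Nat.card_congr (Subgroup.subgroupOfEquivOfLe hPC).toEquiv

theorem IsBlockLevel.reg_sum (L : IsBlockLevel (p := p) P c hQP hPC f ψ) (hM : IsPModular p M) :
    ∑ s, pRegularPart p (fun s => (ψ : 𝐂[Q] → ℂ) s * conj ((ψ : 𝐂[Q] → ℂ) s)) s =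
      (Nat.card 𝐂[Q] : ℂ) / (Nat.card P : ℂ) := by
  have h1 := sum_reg_sq hM L.max L.nil L.mem L.h0
  rwa [card_subgroupOf hPC] at h1

end Values

section ValueG

/-- The value of the character of `P` attached to a source idempotent. -/
theorem chiT_src_value {v : G} (hv : ∃ k : ℕ, orderOf v = p ^ k) (hM : IsPModular p M)
    {hQP : Subgroup.zpowers v ≤ P} {hPC : P ≤ 𝐂[Subgroup.zpowers v]}
    {f : BlockT M 𝐂[Subgroup.zpowers v]} {ψ : IrrCharacter 𝐂[Subgroup.zpowers v]}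
    {i : MonoidAlgebra (localSubring M) G} {j : MonoidAlgebra (localSubring M) 𝐂[Subgroup.zpowers v]}
    (L : IsBlockLevel (p := p) P c hQP hPC f ψ) (J : IsIdemLevel P _ f i j)
    (hiv : i ∈ SV M v) (hii : i * i = i) {χ : G → ℂ} (hχ : IsClassFunction G χ) :
    chiT χ (ofG (localSubring M) v * i) =
      cF f.1 (shiftF v χ) * chiT (ψ : 𝐂[Subgroup.zpowers v] → ℂ) j := by
  have hfv : ∀ k : 𝐂[Subgroup.zpowers v], v * (𝐂[Subgroup.zpowers v].subtype k) = (𝐂[Subgroup.zpowers v].subtype k) * v := by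
    intro k
    have := (Subgroup.mem_centralizer_iff.1 k.2) v (Subgroup.mem_zpowers v)
    exact this
  rw [chiT_bridge hM (Subgroup.subtype_injective _) hv hfv hχ hiv hii J.idem J.br]
  rw [← L.chiT_eq J hM (shiftF_isClass v hχ), chiT_apply]
  rfl

theorem bw_eq_of_level (h : FS p M B P c T) (w : P) {hQP : Subgroup.zpowers (w : G) ≤ P}
    {hPC : P ≤ 𝐂[Subgroup.zpowers (w : G)]} {f : BlockT M 𝐂[Subgroup.zpowers (w : G)]}
    {ψ : IrrCharacter 𝐂[Subgroup.zpowers (w : G)]} (L : IsBlockLevel (p := p) P c hQP hPC f ψ) :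
    bw h.hM h.hmax.1.1 w = f := by
  apply Subtype.ext
  exact eq_of_two_subpairLE h.hM h.hmax.1.1 (subpairLE_of_normal L.norm) (bw_spec h.hM h.hmax.1.1 w)

theorem FS.hTK (h : FS p M B P c T) {w : P} (hw : w ≠ 1) :
    ∀ t ∈ T, t ∈ 𝐂[Subgroup.zpowers (w : G)] → t ∈ 𝐂[P] := by
  intro t ht hk
  refine h.hfree t ht w w.2 (fun h1 => hw (Subtype.ext h1)) ?_
  rw [← (Subgroup.mem_centralizer_iff.1 hk) (w : G) (Subgroup.mem_zpowers _)]
  group

/-- The coefficients at a nontrivial element of `P`. -/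
theorem cc_G (h : FS p M B P c T) {w : P} (hw : w ≠ 1) {hQP : Subgroup.zpowers (w : G) ≤ P}
    {hPC : P ≤ 𝐂[Subgroup.zpowers (w : G)]} {f : BlockT M 𝐂[Subgroup.zpowers (w : G)]}
    {ψ : IrrCharacter 𝐂[Subgroup.zpowers (w : G)]} (L : IsBlockLevel (p := p) P c hQP hPC f ψ)
    {χ χ' : G → ℂ} (hχ : IsClassFunction G χ) (hχ' : IsClassFunction G χ') :
    cc h.hM h.hmax.1.1 χ χ' w = cF f.1 (shiftF (w : G) χ) * conj (cF f.1 (shiftF (w : G) χ')) /
      ((((𝐂[P]).relIndex T : ℕ) : ℂ) * (Nat.card P : ℂ)) := by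
  have hb : ∀ F, IsClassFunction 𝐂[Subgroup.zpowers (w : G)] F → ∀ s, ¬ p ∣ orderOf s →
      blockProj (bw h.hM h.hmax.1.1 w).1 F s = cF f.1 F * (ψ : 𝐂[Subgroup.zpowers (w : G)] → ℂ) s := by
    intro F _ s hs
    rw [bw_eq_of_level h w L]
    exact blockProj_of_const L.const F hs
  rw [cc_of_const h.hM h.hmax h.hab h.hT w (h.hTK hw) hb hχ hχ', L.reg_sum h.hM]
  have h1 : (Nat.card 𝐂[Subgroup.zpowers (w : G)] : ℂ) ≠ 0 := by exact_mod_cast Nat.card_pos.ne'
  have h2 : (Nat.card P : ℂ) ≠ 0 := by exact_mod_cast Nat.card_pos.ne'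
  have h3 : (((𝐂[P]).relIndex T : ℕ) : ℂ) ≠ 0 := by
    have : (𝐂[P]).relIndex T ≠ 0 := Subgroup.index_ne_zero_of_finite
    exact_mod_cast this
  push_cast
  field_simp

end ValueG

section Integral

variable {K : Type u} [Group K] [Fintype K]

/-- A central element acts on an irreducible character by a scalar. -/
theorem irr_central (ξ : IrrCharacter K) {z : K} (hz : ∀ k, z * k = k * z) (s : K) :
    (ξ : K → ℂ) (z * s) = ((ξ : K → ℂ) z / (ξ : K → ℂ) 1) * (ξ : K → ℂ) s := by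
  classical
  have hec : IsClassFunction K (fun l => if l = z then (1 : ℂ) else 0) := by
    intro a t
    have h1 : t * a * t⁻¹ = z ↔ a = z := by
      constructor
      · intro h
        have h2 : a = t⁻¹ * z * t := by rw [← h]; group
        rw [h2, mul_assoc, hz t]
        group
      · rintro rfl
        rw [← hz t]
        group
    simp only [h1]
  have h1 := Cfsg.Agent.Lib.BlockSecond.sum_class_mul_irr hec ξ s
  simp only [ite_mul, one_mul, zero_mul, Finset.sum_ite_eq', Finset.mem_univ, if_true] at h1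
  rw [hz s, h1]
  congr 1
  unfold Cfsg.Agent.Lib.BlockIdem.omega
  congr 1
  simp

theorem isIntegral_central_ratio (ξ : IrrCharacter K) {z : K} (hz : ∀ k, z * k = k * z) :
    IsIntegral ℤ ((ξ : K → ℂ) z / (ξ : K → ℂ) 1) := by
  set ω := (ξ : K → ℂ) z / (ξ : K → ℂ) 1 with hω
  have h1 : ∀ n : ℕ, (ξ : K → ℂ) (z ^ n) = ω ^ n * (ξ : K → ℂ) 1 := by
    intro n
    induction n with
    | zero => simp
    | succ n ih => rw [pow_succ', irr_central ξ hz, ih, pow_succ']; ring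
  have h2 : ω ^ orderOf z = 1 := by
    have h3 := h1 (orderOf z)
    rw [pow_orderOf_eq_one] at h3
    have h4 : (ξ : K → ℂ) 1 ≠ 0 := isIrr_one_ne_zero ξ.2
    field_simp at h3
    exact h3.symm
  apply IsIntegral.of_pow (orderOf_pos z)
  rw [h2]
  exact isIntegral_one

/-- The coefficient of a shifted character is an algebraic integer. -/
theorem isIntegral_cF_shift (f : Set (IrrCharacter K)) {Θ : K → ℂ} (hΘ : IsCharacter K Θ) {z : K}
    (hz : ∀ k, z * k = k * z) : IsIntegral ℤ (cF f (fun k => Θ (z * k))) := by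
  classical
  have hΘc := isClassFunction_of_isCharacter hΘ
  have hdec : (fun k => Θ (z * k)) = ∑ ξ : IrrCharacter K,
      (classInner Θ (ξ : K → ℂ) * ((ξ : K → ℂ) z / (ξ : K → ℂ) 1)) • (ξ : K → ℂ) := by
    funext k
    have h1 := congrFun (classFunction_eq_sum hΘc) (z * k)
    rw [h1]
    simp only [Finset.sum_apply, Pi.smul_apply, smul_eq_mul]
    refine Finset.sum_congr rfl fun ξ _ => ?_
    rw [irr_central ξ hz]
    ring
  have hinner : ∀ ζ : IrrCharacter K, classInner (fun k => Θ (z * k)) (ζ : K → ℂ) =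
      classInner Θ (ζ : K → ℂ) * ((ζ : K → ℂ) z / (ζ : K → ℂ) 1) := by
    intro ζ
    rw [hdec, classInner_sum_left, Finset.sum_eq_single ζ]
    · rw [classInner_smul_left, classInner_irr_self ζ.2, mul_one]
    · intro b _ hb
      rw [classInner_smul_left, classInner_irr_ne b.2 ζ.2 (fun h => hb (Subtype.ext h)), mul_zero]
    · intro h
      exact absurd (Finset.mem_univ _) h
  unfold cF
  refine IsIntegral.sum _ fun ζ _ => ?_
  rw [hinner]
  refine IsIntegral.mul ?_ (IsIntegral.mul ?_ (isIntegral_central_ratio ζ hz))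
  · by_cases h : ζ ∈ f
    · rw [indB_of_mem h]
      exact isIntegral_one
    · rw [indB_of_not_mem h]
      exact isIntegral_zero
  · obtain ⟨n, hn⟩ := classInner_gen_irr (isGen_of_isChar hΘ) ζ.2
    rw [hn]
    have h5 : (n : ℂ) = algebraMap ℤ ℂ n := by simp
    rw [h5]
    exact isIntegral_algebraMap

end Integral

section LevelH

variable {R T' : Subgroup G} {hRP : R ≤ P} {hPC : P ≤ Subgroup.centralizer (R : Set G)}
  {hTP : T' ≤ P} {hPC' : P ≤ Subgroup.centralizer (T' : Set G)}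
  {fR : BlockT M (Subgroup.centralizer (R : Set G))} {ψR : IrrCharacter (Subgroup.centralizer (R : Set G))}
  {fT : BlockT M (Subgroup.centralizer (T' : Set G))} {ψT : IrrCharacter (Subgroup.centralizer (T' : Set G))}
  {i : MonoidAlgebra (localSubring M) G} {jR : MonoidAlgebra (localSubring M) (Subgroup.centralizer (R : Set G))}
  {jT : MonoidAlgebra (localSubring M) (Subgroup.centralizer (T' : Set G))}

/-- The function attached to `ψ_R` on the centralizer of a larger subgroup. -/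
noncomputable def shF {H : Type u} [Group H] {K : Subgroup H} (ζ : H → ℂ) (w : H) (k : K) : ℂ := ζ (w * k)

theorem level_H (h : FS p M B P c T) (LR : IsBlockLevel (p := p) P c hRP hPC fR ψR) (LT : IsBlockLevel (p := p) P c hTP hPC' fT ψT)
    (JR : IsIdemLevel P R fR i jR) (JT : IsIdemLevel P T' fT i jT)
    (w : 𝐂[R]) (hwP : (w : G) ∈ P) (m : CenMatch (T := 𝐂[R]) (Subgroup.zpowers w) T') :
    ∃ ζ : ℂ, ζ * conj ζ = 1 ∧ IsIntegral ℤ ζ ∧
      chiT (ψR : 𝐂[R] → ℂ) (ofG (localSubring M) w * jR) = ζ * chiT (ψT : 𝐂[T'] → ℂ) jT := by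
  classical
  have hM := h.hM
  have hPp := h.hPp
  set PH : Subgroup 𝐂[R] := P.subgroupOf 𝐂[R] with hPH
  set cH := twistSetE (cenMatch_in hRP hPC).iso.symm c.1 with hcH
  have hmaxH : IsMaximalBrauerPair p M fR.1 PH cH := LR.max
  have heH := hmaxH.1.1
  have habH : ∀ x ∈ PH, ∀ y ∈ PH, x * y = y * x := by
    intro x hx y hy
    apply Subtype.ext
    exact h.hab _ (Subgroup.mem_subgroupOf.1 hx) _ (Subgroup.mem_subgroupOf.1 hy)
  have hwPH : w ∈ PH := Subgroup.mem_subgroupOf.2 hwP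
  set w' : PH := ⟨w, hwPH⟩ with hw'
  have hPHp : IsPGroup p PH := hmaxH.1.1.1
  have hwzp : Subgroup.zpowers w ≤ PH := by
    rw [Subgroup.zpowers_le]
    exact hwPH
  -- the block below
  have hnorm : IsNormalSubpair p M (Subgroup.zpowers w) (twistSetE m.iso.symm fT.1) PH cH :=
    normalSubpair_hat m (cenMatch_in hRP hPC) LT.norm (hPHp.to_le hwzp) hPHp hwzp
      (le_normalizer_of_abelian habH hwzp) (fun x hx => Subgroup.mem_subgroupOf.1 hx)
  have hbw : (bw hM heH w').1 = twistSetE m.iso.symm fT.1 :=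
    eq_of_two_subpairLE hM heH (subpairLE_of_normal hnorm) (bw_spec hM heH w')
  -- the inertial group in `H`
  have hTHi : ∀ g : 𝐂[R], g ∈ Subgroup.centralizer (PH : Set 𝐂[R]) ↔ (g ∈ Subgroup.normalizer (PH : Set 𝐂[R]) ∧
      StabilizesBlock (Subgroup.centralizer (PH : Set 𝐂[R])) cH g) := by
    intro g
    constructor
    · intro hg
      exact ⟨mem_normalizer_of_mem_centralizer hg, stabilizes_of_mem_centralizer hg cH⟩
    · rintro ⟨h1, h2⟩
      exact (isNilpotentBlock_iff_of_abelian hM hmaxH habH).1 LR.nil g h1 h2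
  set ψ' : Subgroup.centralizer ((Subgroup.zpowers w : Subgroup 𝐂[R]) : Set 𝐂[R]) → ℂ :=
    fun s => (ψT : 𝐂[T'] → ℂ) (m.iso s) with hψ'
  set c' : (Subgroup.centralizer ((Subgroup.zpowers w : Subgroup 𝐂[R]) : Set 𝐂[R]) → ℂ) → ℂ :=
    fun F => cF fT.1 (fun k => F (m.iso.symm k)) with hc'
  have hb : ∀ F, IsClassFunction _ F → ∀ s, ¬ p ∣ orderOf s → blockProj (bw hM heH w').1 F s = c' F * ψ' s := by
    intro F _ s hs
    rw [hbw, blockProj_twistSetE]
    have hs' : ¬ p ∣ orderOf (m.iso s) := by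
      rwa [MulEquiv.orderOf_eq]
    exact blockProj_of_const LT.const _ hs'
  have hcc := cc_of_const hM hmaxH habH hTHi w'
    (fun t ht _ => ht) hb (isClassFunction_of_isCharacter (IsIrrCharacter.isCharacter ψR.2))
    (isClassFunction_of_isCharacter (IsIrrCharacter.isCharacter ψR.2))
  rw [cc_eq_inv_card hM hmaxH LR.nil LR.mem LR.h0 w'] at hcc
  have hreg : ∑ s, pRegularPart p (fun s => ψ' s * conj (ψ' s)) s = (Nat.card 𝐂[T'] : ℂ) / (Nat.card P : ℂ) := by
    rw [← LT.reg_sum hM]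
    refine Fintype.sum_equiv m.iso.toEquiv _ _ fun s => ?_
    by_cases hs : p ∣ orderOf s
    · have hs' : p ∣ orderOf (m.iso s) := by rwa [MulEquiv.orderOf_eq]
      rw [pRegularPart_of_sing _ hs]
      show _ = pRegularPart p _ (m.iso s)
      rw [pRegularPart_of_sing _ hs']
    · have hs' : ¬ p ∣ orderOf (m.iso s) := by rwa [MulEquiv.orderOf_eq]
      rw [pRegularPart_of_reg _ hs]
      show _ = pRegularPart p _ (m.iso s)
      rw [pRegularPart_of_reg _ hs']
  rw [hreg, Subgroup.relIndex_self, card_subgroupOf hPC] at hcc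
  have hcardK : Nat.card (Subgroup.centralizer ((Subgroup.zpowers w : Subgroup 𝐂[R]) : Set 𝐂[R])) = Nat.card 𝐂[T'] :=
    Nat.card_congr m.iso.toEquiv
  rw [hcardK] at hcc
  have hKc : (Nat.card 𝐂[T'] : ℂ) ≠ 0 := by exact_mod_cast Nat.card_pos.ne'
  have hPc : (Nat.card P : ℂ) ≠ 0 := by exact_mod_cast Nat.card_pos.ne'
  set ι : 𝐂[T'] →* 𝐂[R] := Subgroup.inclusion m.le with hι
  have hιinj : Function.Injective ι := Subgroup.inclusion_injective _
  have hιcoe : ∀ k : 𝐂[T'], ((ι k : 𝐂[R]) : G) = (k : G) := fun _ => rfl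
  set F' : 𝐂[T'] → ℂ := fun k => (ψR : 𝐂[R] → ℂ) (w * ι k) with hF'
  have hc'eq : c' (shiftF w (ψR : 𝐂[R] → ℂ)) = cF fT.1 F' := rfl
  rw [hc'eq] at hcc
  have hwc : (w : G) ∈ 𝐂[T'] := (m.iff w).1 (by
    rw [Subgroup.mem_centralizer_iff]
    intro y hy
    obtain ⟨a, rfl⟩ := Subgroup.mem_zpowers_iff.1 hy
    exact ((Commute.refl w).zpow_left a).eq)
  set z : 𝐂[T'] := ⟨(w : G), hwc⟩ with hz
  have hkw : ∀ k : 𝐂[T'], w * ι k = ι k * w := by
    intro k
    have h1 := (m.iff (ι k)).2 k.2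
    exact ((Subgroup.mem_centralizer_iff.1 h1) w (Subgroup.mem_zpowers w))
  have hzc : ∀ k : 𝐂[T'], z * k = k * z := by
    intro k
    apply Subtype.ext
    show (w : G) * (k : G) = (k : G) * (w : G)
    exact congrArg Subtype.val (hkw k)
  have hΘ : IsCharacter 𝐂[T'] (fun k => (ψR : 𝐂[R] → ℂ) (ι k)) :=
    isCharacter_comp ι (IsIrrCharacter.isCharacter ψR.2)
  have hF'eq : F' = fun k => (fun k => (ψR : 𝐂[R] → ℂ) (ι k)) (z * k) := by
    funext k
    simp only [hF', map_mul]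
    rfl
  have hF'c : IsClassFunction 𝐂[T'] F' := by
    intro a t
    rw [hF'eq]
    have hΘc := isClassFunction_of_isCharacter hΘ
    show (ψR : 𝐂[R] → ℂ) (ι (z * (t * a * t⁻¹))) = (ψR : 𝐂[R] → ℂ) (ι (z * a))
    have h1 : z * (t * a * t⁻¹) = t * (z * a) * t⁻¹ := by
      calc z * (t * a * t⁻¹) = (z * t) * a * t⁻¹ := by group
        _ = (t * z) * a * t⁻¹ := by rw [hzc t]
        _ = _ := by group
    rw [h1]
    exact hΘc _ _
  refine ⟨cF fT.1 F', ?_, ?_, ?_⟩
  · field_simp at hcc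
    rw [one_mul] at hcc
    exact mul_right_cancel₀ hKc (by rw [one_mul]; exact hcc.symm)
  · rw [hF'eq]
    exact isIntegral_cF_shift fT.1 hΘ hzc
  · obtain ⟨k, hk⟩ := IsPGroup.iff_card.1 (hPHp.to_le hwzp)
    have hv : ∃ k : ℕ, orderOf w = p ^ k := ⟨k, by rw [← Nat.card_zpowers]; exact hk⟩
    have hj : jR ∈ SV M w := mem_SV_iff.2 ((mem_cen.1 JR.cen) w hwP)
    have hmatch : br (Subgroup.zpowers w) jR = liftK ι (red jT) := by
      apply Cfsg.Agent.Lib.BlockResidue.ext_coeff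
      intro g
      by_cases hg : g ∈ Subgroup.centralizer ((Subgroup.zpowers w : Subgroup 𝐂[R]) : Set 𝐂[R])
      · have hk : (g : G) ∈ 𝐂[T'] := (m.iff g).1 hg
        have hgι : g = ι ⟨(g : G), hk⟩ := rfl
        rw [br_coeff_mem _ _ hg, hgι, coeff_map_apply hιinj, coeff_red]
        have h1 : (br R i).coeff (g : G) = (liftK 𝐂[R].subtype (red jR)).coeff (g : G) := by rw [JR.br]
        have h2 : (br T' i).coeff (g : G) = (liftK 𝐂[T'].subtype (red jT)).coeff (g : G) := by rw [JT.br]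
        have h3 := coeff_map_apply (R := ResidueField (localSubring M)) (f := 𝐂[R].subtype)
          (Subgroup.subtype_injective _) (red jR) g
        have h4 := coeff_map_apply (R := ResidueField (localSubring M)) (f := 𝐂[T'].subtype)
          (Subgroup.subtype_injective _) (red jT) ⟨(g : G), hk⟩
        have h5 : (liftK 𝐂[R].subtype (red jR)).coeff (g : G) = (red jR).coeff g := h3
        have h6 : (liftK 𝐂[T'].subtype (red jT)).coeff (g : G) = (red jT).coeff ⟨(g : G), hk⟩ := h4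
        rw [h5, coeff_red, br_coeff_mem _ _ g.2] at h1
        rw [h6, coeff_red, br_coeff_mem _ _ hk] at h2
        exact h1.symm.trans h2
      · rw [br_coeff_not_mem _ _ hg]
        have hgr : g ∉ Set.range ι := by
          rintro ⟨k, rfl⟩
          exact hg ((m.iff (ι k)).2 k.2)
        rw [coeff_map_not _ hgr]
    rw [chiT_bridge hM hιinj hv hkw (isClassFunction_of_isCharacter (IsIrrCharacter.isCharacter ψR.2))
      hj JR.idem JT.idem hmatch]
    rw [← LT.chiT_eq JT hM hF'c, chiT_apply]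

end LevelH

end Cfsg.Agent.Lib.BFLevel
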