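import Mathlib
import Cfsg.Agent.Lib.BFLevel

/-!
# The data of a source idempotent at all levels
-/

set_option autoImplicit false
set_option linter.unusedSectionVars false
set_option linter.unusedVariables false
set_option linter.style.haveILetI false

namespace Cfsg.Agent.Lib.BFData

open Polynomial IsLocalRing Cfsg Cfsg.Agent.Lib.StarFit Cfsg.Agent.Lib.StarGrp
open Cfsg.Agent.Lib.StarLoc Cfsg.Agent.Lib.BlockLocal Cfsg.Agent.Lib.BlockCover
open Cfsg.Agent.Lib.BlockResidue Cfsg.Agent.Lib.BrauerMap Cfsg.Agent.Lib.BrauerPair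
open Cfsg.Agent.Lib.BrauerSub Cfsg.Agent.Lib.BlockIdem Cfsg.Agent.Lib.CharIntegrality
open Cfsg.Agent.Lib.BlkBasic Cfsg.Agent.Lib.StarBlk Cfsg.Agent.Lib.StarP Cfsg.Agent.Lib.StarTh
open Cfsg.Agent.Lib.StarFit.LocSys Cfsg.Agent.Lib.GenChar Cfsg.Agent.Lib.CharBasic
open Cfsg.Agent.Lib.CharInd Cfsg.Agent.Lib.StarGen Cfsg.Agent.Lib.BrauerConj
open Cfsg.Agent.Lib.BrauerCen Cfsg.Agent.Lib.BrauerMax Cfsg.Agent.Lib.StarII
open Cfsg.Agent.Lib.StarGlob Cfsg.Agent.Lib.BlockOrtho Cfsg.Agent.Lib.StarInner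
open Cfsg.Agent.Lib.BFNorm Cfsg.Agent.Lib.BFSrc Cfsg.Agent.Lib.StarNil Cfsg.Agent.Lib.BFCol
open Cfsg.Agent.Lib.BFLevel Cfsg.Agent.Lib.StarNorm Cfsg.Agent.Lib.BrauerStab
open scoped ComplexConjugate

universe u

variable {G : Type u} [Group G] [Fintype G] {p : ℕ} [hp : Fact p.Prime] {M : Ideal AlgInt}
  [hMp : M.IsPrime]

local notation "𝐂[" R "]" => Subgroup.centralizer ((R : Subgroup G) : Set G)
local notation "𝐍[" R "]" => Subgroup.normalizer ((R : Subgroup G) : Set G)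

noncomputable local instance fintypeSubBFD {A : Type*} [Group A] [Finite A] (K : Subgroup A) : Fintype K :=
  Fintype.ofFinite K

variable {B : Set (IrrCharacter G)} {P : Subgroup G} {c : BlockT M (Subgroup.centralizer (P : Set G))}
  {T : Subgroup G}

/-- The levels of an idempotent. -/
structure LD (h : FS p M B P c T) (i : MonoidAlgebra (localSubring M) G) where
  f : ∀ Q : Subgroup G, Q ≤ P → Q ≠ ⊥ → BlockT M (Subgroup.centralizer (Q : Set G))
  ψ : ∀ Q : Subgroup G, Q ≤ P → Q ≠ ⊥ → IrrCharacter (Subgroup.centralizer (Q : Set G))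
  j : ∀ Q : Subgroup G, Q ≤ P → Q ≠ ⊥ → MonoidAlgebra (localSubring M) (Subgroup.centralizer (Q : Set G))
  L : ∀ (Q : Subgroup G) (hQ : Q ≤ P) (h1 : Q ≠ ⊥), IsBlockLevel (p := p) P c hQ (h.hPC hQ) (f Q hQ h1) (ψ Q hQ h1)
  J : ∀ (Q : Subgroup G) (hQ : Q ≤ P) (h1 : Q ≠ ⊥), IsIdemLevel P Q (f Q hQ h1) i (j Q hQ h1)

theorem exists_LD (h : FS p M B P c T) {χ₀ : G → ℂ} {i : MonoidAlgebra (localSubring M) G}
    (hS : IsSrc P c χ₀ i) : Nonempty (LD h i) := by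
  classical
  have h1 : ∀ (Q : Subgroup G) (hQ : Q ≤ P) (h1 : Q ≠ ⊥), ∃ (f : BlockT M 𝐂[Q]) (ψ : IrrCharacter 𝐂[Q])
      (j : MonoidAlgebra (localSubring M) 𝐂[Q]),
      IsBlockLevel (p := p) P c hQ (h.hPC hQ) f ψ ∧ IsIdemLevel P Q f i j := by
    intro Q hQ h1
    obtain ⟨f, ψ, L⟩ := exists_isBlockLevel h hQ h1
    obtain ⟨j, J⟩ := exists_isIdemLevel h hS.prim hS.ne hS.blk hQ f L.norm
    exact ⟨f, ψ, j, L, J⟩
  choose f ψ j L J using h1
  exact ⟨⟨f, ψ, j, L, J⟩⟩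


theorem cF_shift_integral (v : G) (f : Set (IrrCharacter 𝐂[Subgroup.zpowers v])) {χ : G → ℂ}
    (hχ : IsCharacter G χ) : IsIntegral ℤ (cF f (shiftF v χ)) := by
  have hz : v ∈ 𝐂[Subgroup.zpowers v] := zp_le_C v (Subgroup.mem_zpowers v)
  exact isIntegral_cF_shift f (Θ := fun k => χ k) (isCharacter_comp 𝐂[Subgroup.zpowers v].subtype hχ)
    (z := ⟨v, hz⟩) (fun k => Subtype.ext ((Subgroup.mem_centralizer_iff.1 k.2) v (Subgroup.mem_zpowers v)))

section FF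

variable {i : MonoidAlgebra (localSubring M) G}

/-- The function on `P` attached to an idempotent. -/
noncomputable def FF (i : MonoidAlgebra (localSubring M) G) (χ : G → ℂ) (v : P) : ℂ :=
  chiT χ (ofG (localSubring M) (v : G) * i)

theorem FF_isGen {χ₀ : G → ℂ} (hS : IsSrc P c χ₀ i) {χ : G → ℂ} (hχ : IsCharacter G χ) :
    IsGeneralizedCharacter P (FF (P := P) i χ) :=
  gen_chiT hχ (fun e he => (mem_cen.1 (SS_left hS.prim.mem)) e he) hS.prim.idem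

theorem FF_one (χ : G → ℂ) : FF (P := P) i χ 1 = chiT χ i := by
  unfold FF
  simp

end FF

namespace LD

variable {h : FS p M B P c T} {i : MonoidAlgebra (localSubring M) G} (d : LD h i)

open Classical in
/-- The value of the level at `S`. -/
noncomputable def nu (S : Subgroup G) : ℂ :=
  if hS : S ≤ P ∧ S ≠ ⊥ then
    chiT (d.ψ S hS.1 hS.2 : 𝐂[S] → ℂ) (d.j S hS.1 hS.2) else 0

theorem nu_of {S : Subgroup G} (hS : S ≤ P) (h1 : S ≠ ⊥) :
    d.nu S = chiT (d.ψ S hS h1 : 𝐂[S] → ℂ) (d.j S hS h1) :=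
  dif_pos ⟨hS, h1⟩

/-- The function on `P` attached to the level at `Q`. -/
noncomputable def XX {Q : Subgroup G} (hQ : Q ≤ P) (h1 : Q ≠ ⊥) (v : P) : ℂ :=
  chiT (d.ψ Q hQ h1 : 𝐂[Q] → ℂ) (ofG (localSubring M) (⟨v, h.hPC hQ v.2⟩ : 𝐂[Q]) * d.j Q hQ h1)

theorem XX_isGen {Q : Subgroup G} (hQ : Q ≤ P) (h1 : Q ≠ ⊥) :
    IsGeneralizedCharacter P (d.XX hQ h1) := by
  have h2 := gen_chiT (E := P.subgroupOf 𝐂[Q]) (IsIrrCharacter.isCharacter (d.ψ Q hQ h1).2)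
    (i := d.j Q hQ h1) (fun e he => (mem_cen.1 (d.J Q hQ h1).cen) e (Subgroup.mem_subgroupOf.1 he)) (d.J Q hQ h1).idem
  exact isGen_isCharacter_comp (Subgroup.subgroupOfEquivOfLe (h.hPC hQ)).symm.toMonoidHom h2

theorem XX_one {Q : Subgroup G} (hQ : Q ≤ P) (h1 : Q ≠ ⊥) : d.XX hQ h1 1 = d.nu Q := by
  rw [d.nu_of hQ h1]
  unfold XX
  have h2 : (⟨((1 : P) : G), h.hPC hQ (1 : P).2⟩ : 𝐂[Q]) = 1 := rfl
  rw [h2]
  simp

theorem nu_int {Q : Subgroup G} (hQ : Q ≤ P) (h1 : Q ≠ ⊥) : ∃ n : ℤ, d.nu Q = n := by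
  rw [← d.XX_one hQ h1]
  obtain ⟨a, b, ha, hb, hab⟩ := d.XX_isGen hQ h1
  obtain ⟨x, hx⟩ := isCharacter_one_eq ha
  obtain ⟨y, hy⟩ := isCharacter_one_eq hb
  refine ⟨(x : ℤ) - y, ?_⟩
  rw [hab]
  simp [hx, hy]

theorem XX_level {Q : Subgroup G} (hQ : Q ≤ P) (h1 : Q ≠ ⊥) (v : P) :
    ∃ ζ : ℂ, ζ * conj ζ = 1 ∧ IsIntegral ℤ ζ ∧
      d.XX hQ h1 v = ζ * d.nu (Q ⊔ Subgroup.zpowers (v : G)) := by
  set w : 𝐂[Q] := ⟨v, h.hPC hQ v.2⟩ with hw
  have hT' : (Subgroup.zpowers w).map 𝐂[Q].subtype = Subgroup.zpowers (v : G) := by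
    rw [MonoidHom.map_zpowers]
    rfl
  have m : CenMatch (T := 𝐂[Q]) (Subgroup.zpowers w) (Q ⊔ Subgroup.zpowers (v : G)) := by
    have h2 := cenMatch_cen Q (Subgroup.zpowers w)
    rwa [hT'] at h2
  have hTP : Q ⊔ Subgroup.zpowers (v : G) ≤ P := sup_le hQ (zp_le_of_mem v)
  have hT1 : Q ⊔ Subgroup.zpowers (v : G) ≠ ⊥ := fun h0 => h1 (le_bot_iff.1 (h0 ▸ le_sup_left))
  obtain ⟨ζ, h2, h3, h4⟩ := level_H h (d.L Q hQ h1) (d.L _ hTP hT1) (d.J Q hQ h1) (d.J _ hTP hT1) w v.2 m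
  refine ⟨ζ, h2, h3, ?_⟩
  rw [d.nu_of hTP hT1]
  exact h4

theorem nu_sup {Q : Subgroup G} (hQ : Q ≤ P) (h1 : Q ≠ ⊥) (hQn : ¬ MemLocalIdeal M (d.nu Q)) (v : P) :
    ¬ MemLocalIdeal M (d.nu (Q ⊔ Subgroup.zpowers (v : G))) := by
  obtain ⟨ζ, -, hζi, hX⟩ := d.XX_level hQ h1 v
  have h2 := gen_sub_one_mem h.hM h.hPp (d.XX_isGen hQ h1) v
  intro h3
  apply hQn
  rw [← d.XX_one hQ h1]
  have h4 : MemLocalIdeal M (d.XX hQ h1 v) := by
    rw [hX]
    exact memLocalIdeal_mul_left (memLocalRing_of_isIntegral hζi) h3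
  have h5 := memLocalIdeal_sub h4 h2
  convert h5 using 1
  ring

theorem FF_value {χ₀ : G → ℂ} (hS : IsSrc P c χ₀ i) {χ : G → ℂ} (hχ : IsClassFunction G χ) {w : P}
    (hw : w ≠ 1) (h1 : Subgroup.zpowers (w : G) ≠ ⊥) :
    FF (P := P) i χ w = cF (d.f _ (zp_le_of_mem w) h1).1 (shiftF (w : G) χ) * d.nu (Subgroup.zpowers (w : G)) := by
  rw [d.nu_of (zp_le_of_mem w) h1]
  have hv : ∃ k : ℕ, orderOf (w : G) = p ^ k := by
    obtain ⟨k, hk⟩ := IsPGroup.iff_card.1 (h.hPp.to_le (zp_le_of_mem w))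
    exact ⟨k, by rw [← Nat.card_zpowers]; exact hk⟩
  exact chiT_src_value hv h.hM (d.L _ _ h1) (d.J _ _ h1)
    (mem_SV_iff.2 ((mem_cen.1 (SS_left hS.prim.mem)) w w.2)) hS.prim.idem hχ

theorem zp_ne_bot {w : P} (hw : w ≠ 1) : Subgroup.zpowers (w : G) ≠ ⊥ := by
  rw [Ne, Subgroup.zpowers_eq_bot]
  exact fun h1 => hw (Subtype.ext h1)

theorem nu_zp {χ₀ : G → ℂ} (hχ₀ : IsCharacter G χ₀) (hS : IsSrc P c χ₀ i) {w : P} (hw : w ≠ 1) :
    ¬ MemLocalIdeal M (d.nu (Subgroup.zpowers (w : G))) := by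
  intro h3
  apply hS.unit
  have h1 := zp_ne_bot hw
  have h2 := gen_sub_one_mem h.hM h.hPp (FF_isGen hS hχ₀) w
  have h4 : MemLocalIdeal M (FF (P := P) i χ₀ w) := by
    rw [d.FF_value hS (isClassFunction_of_isCharacter hχ₀) hw h1]
    exact memLocalIdeal_mul_left (memLocalRing_of_isIntegral (cF_shift_integral _ _ hχ₀)) h3
  have h5 := memLocalIdeal_sub h4 h2
  rw [← FF_one]
  convert h5 using 1
  ring

theorem nu_unit {χ₀ : G → ℂ} (hχ₀ : IsCharacter G χ₀) (hS : IsSrc P c χ₀ i) {S : Subgroup G} (hSP : S ≤ P)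
    (h1 : S ≠ ⊥) : ¬ MemLocalIdeal M (d.nu S) := by
  classical
  set s : Set (Subgroup G) := {R | R ≤ S ∧ R ≠ ⊥ ∧ ¬ MemLocalIdeal M (d.nu R)} with hs
  have hne : s.Nonempty := by
    obtain ⟨⟨w, hwS⟩, hw⟩ := (Subgroup.ne_bot_iff_exists_ne_one).1 h1
    have hwP : w ∈ P := hSP hwS
    have hw' : (⟨w, hwP⟩ : P) ≠ 1 := fun h0 => hw (Subtype.ext (congrArg (fun z : P => (z : G)) h0))
    refine ⟨Subgroup.zpowers w, ?_, zp_ne_bot hw', d.nu_zp hχ₀ hS hw'⟩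
    rw [Subgroup.zpowers_le]
    exact hwS
  obtain ⟨R, hR⟩ := (Set.toFinite s).exists_maximal hne
  obtain ⟨⟨hRS, hR1, hRn⟩, hRmax⟩ := hR
  have hRS' : R = S := by
    apply le_antisymm hRS
    intro v hv
    have hvP : v ∈ P := hSP hv
    have h2 := d.nu_sup (hRS.trans hSP) hR1 hRn ⟨v, hvP⟩
    have h3 : R ⊔ Subgroup.zpowers v ∈ s := by
      refine ⟨sup_le hRS ?_, fun h0 => hR1 (le_bot_iff.1 (h0 ▸ le_sup_left)), h2⟩
      rw [Subgroup.zpowers_le]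
      exact hv
    have h4 := hRmax h3 le_sup_left
    exact h4 (Subgroup.mem_sup_right (Subgroup.mem_zpowers v))
  rw [← hRS']
  exact hRn

end LD

section TInv

variable {i i' : MonoidAlgebra (localSubring M) G}

theorem liftA_ofG {X : Type u} [Group X] [Fintype X] (K : Subgroup X) (k : K) :
    liftA (M := M) K.subtype (ofG _ k) = ofG _ (k : X) := by
  simp [liftA, ofG, MonoidAlgebra.mapDomainRingHom_apply, MonoidAlgebra.mapDomain_single]

/-- Idempotents at `P` and their levels: the value of the character is a unit. -/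
theorem chiT_psi_unit (h : FS p M B P c T) {hPC : P ≤ 𝐂[P]} {f : BlockT M 𝐂[P]} {ψ : IrrCharacter 𝐂[P]}
    {j' : MonoidAlgebra (localSubring M) 𝐂[P]} (L : IsBlockLevel (p := p) P c (le_refl P) hPC f ψ)
    (J' : IsIdemLevel P P f i' j') (hi' : i' ∈ cen (localSubring M) (P : Set G))
    {χ₀ : G → ℂ} (hχ₀ : IsCharacter G χ₀) (hunit : ¬ MemLocalIdeal M (chiT χ₀ i')) :
    ¬ MemLocalIdeal M (chiT (ψ : 𝐂[P] → ℂ) j') := by
  classical
  intro h0
  apply hunit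
  have hinj : Function.Injective 𝐂[P].subtype := Subgroup.subtype_injective _
  set q := liftA (M := M) 𝐂[P].subtype j' with hq
  have hqP : q ∈ cen (localSubring M) (P : Set G) := by
    rw [mem_cen]
    intro e he
    have h1 := (mem_cen.1 J'.cen) ⟨e, hPC he⟩ he
    have h2 := congrArg (liftA (M := M) 𝐂[P].subtype) h1
    rw [map_mul, map_mul, liftA_ofG] at h2
    exact h2
  have hbrq : br P q = liftK 𝐂[P].subtype (red j') := by
    apply Cfsg.Agent.Lib.BlockResidue.ext_coeff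
    intro g
    by_cases hg : g ∈ 𝐂[P]
    · have h3 := coeff_map_apply (R := ResidueField (localSubring M)) (f := 𝐂[P].subtype) hinj (red j') ⟨g, hg⟩
      have h4 := coeff_map_apply (R := localSubring M) (f := 𝐂[P].subtype) hinj j' ⟨g, hg⟩
      have h5 : (liftK (M := M) 𝐂[P].subtype (red j')).coeff g = (red j').coeff ⟨g, hg⟩ := h3
      have h6 : q.coeff g = j'.coeff ⟨g, hg⟩ := h4
      rw [br_coeff_mem _ _ hg, h5, coeff_red, h6]
    · have hr : g ∉ Set.range 𝐂[P].subtype := by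
        rintro ⟨k, rfl⟩
        exact hg k.2
      rw [br_coeff_not_mem _ _ hg, coeff_map_not _ hr]
  have h1 : MemLocalIdeal M (chiT χ₀ (i' - q)) := by
    apply chiT_mem_of_br_zero h.hM h.hPp hχ₀ ((cen (localSubring M) (P : Set G)).sub_mem hi' hqP)
    rw [map_sub, J'.br, hbrq, sub_self]
  have h2 : chiT χ₀ q = chiT (fun k : 𝐂[P] => χ₀ k) j' := by
    have h3 := chiT_ofG_mul_lift (M := M) hinj χ₀ 1 j'
    have h4 : ofG (localSubring M) (1 : G) = 1 := ofG_one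
    rw [h4, one_mul] at h3
    rw [hq, h3, chiT_apply]
    refine Finset.sum_congr rfl fun k _ => ?_
    simp
  have hΘ : IsCharacter 𝐂[P] (fun k : 𝐂[P] => χ₀ k) := isCharacter_comp 𝐂[P].subtype hχ₀
  have h3 := L.chiT_eq J' h.hM (F := fun k : 𝐂[P] => χ₀ k) (isClassFunction_of_isCharacter hΘ)
  have h4 : IsIntegral ℤ (cF f.1 (fun k : 𝐂[P] => χ₀ k)) := by
    have h5 := isIntegral_cF_shift f.1 hΘ (z := 1) (fun k => by group)
    simpa using h5
  have h5 : MemLocalIdeal M (chiT χ₀ q) := by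
    rw [h2, h3]
    exact memLocalIdeal_mul_left (memLocalRing_of_isIntegral h4) h0
  have h6 := memLocalIdeal_add h1 h5
  convert h6 using 1
  rw [map_sub]
  ring

theorem hψ0_of_level (h : FS p M B P c T) {Q : Subgroup G} {hQP : Q ≤ P} {hPC : P ≤ 𝐂[Q]} {f : BlockT M 𝐂[Q]}
    {ψ : IrrCharacter 𝐂[Q]} (L : IsBlockLevel (p := p) P c hQP hPC f ψ) :
    (charDegree (ψ : 𝐂[Q] → ℂ)).factorization p + (Nat.card P).factorization p =
      (Nat.card 𝐂[Q]).factorization p := by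
  rw [L.h0, Cfsg.Agent.Lib.BlockQ.card_factorization_eq (M := M) f.2]
  have hD := isDefectGroup_of_maximal h.hM L.max
  have h1 := Cfsg.Agent.Lib.BlockDefect.card_isDefectGroup h.hM f.2 hD
  rw [card_subgroupOf hPC] at h1
  rw [h1, hp.out.factorization_pow]
  simp
  ring

/-- **Conjugation by the stabilizer fixes the values.** -/
theorem FF_T (h : FS p M B P c T) (hP1 : P ≠ ⊥) (d : LD h i) {χ₀ : G → ℂ} (hχ₀ : IsCharacter G χ₀)
    (hS : IsSrc P c χ₀ i) {t : G} (ht : t ∈ T) {χ : G → ℂ} (hχ : IsClassFunction G χ) (v : P) :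
    chiT χ (ofG (localSubring M) (t * (v : G) * t⁻¹) * i) = chiT χ (ofG (localSubring M) (v : G) * i) := by
  classical
  have hM := h.hM
  have hχ₀c := isClassFunction_of_isCharacter hχ₀
  have hy' : t⁻¹ ∈ T := T.inv_mem ht
  obtain ⟨hyN, hst⟩ := (h.hT _).1 hy'
  set y := t⁻¹ with hy
  set i' := cj y i with hi'
  have hprim' : PrimIn (SS M P ⊥) i' := primIn_cj hyN hS.prim
  have hcjinv : ∀ x : MonoidAlgebra (IsLocalRing.ResidueField (localSubring M)) G, cj y⁻¹ (cj y x) = x := by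
    intro x
    rw [← cj_mul, inv_mul_cancel, cj_one]
  have hne' : br P i' ≠ 0 := by
    rw [hi', br_cj hyN]
    intro h1
    apply hS.ne
    have h2 := congrArg (cj y⁻¹) h1
    rw [hcjinv] at h2
    rw [h2]
    simp [cj]
  have hbb : cj y (bb P c) = bb P c := bb_cj hM hyN (cj_eB_of_stabilizes hst)
  have hblk' : br P i' * bb P c = br P i' := by
    rw [hi', br_cj hyN, ← hbb, ← cj_mul', hS.blk]
  set f := d.f P (le_refl P) hP1 with hf
  set ψ := d.ψ P (le_refl P) hP1 with hψ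
  set j := d.j P (le_refl P) hP1 with hj
  have L : IsBlockLevel (p := p) P c (le_refl P) (h.hPC (le_refl P)) f ψ := d.L P (le_refl P) hP1
  have J : IsIdemLevel P P f i j := d.J P (le_refl P) hP1
  obtain ⟨j', J'⟩ := exists_isIdemLevel h hprim' hne' hblk' (le_refl P) f L.norm
  have hn := chiT_psi_unit h L J (SS_left hS.prim.mem) hχ₀ hS.unit
  have hn' := chiT_psi_unit h L J' (SS_left hprim'.mem) hχ₀ (by
    rw [hi', chiT_cj hχ₀c]
    exact hS.unit)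
  obtain ⟨x, hx, z, hz, hxz, hzx⟩ := exists_assoc hM h.hPp (h.hPC (le_refl P)) hS.prim hprim' J.br J'.br J'.idem
    (hψ0_of_level h L) hn hn'
  have h1 : chiT χ (ofG (localSubring M) (t * (v : G) * t⁻¹) * i) = chiT χ (ofG (localSubring M) (v : G) * i') := by
    rw [← chiT_cj hχ y, cj_mul', cj_ofG]
    have h2 : y * (t * (v : G) * t⁻¹) * y⁻¹ = v := by
      rw [hy]
      group
    rw [h2]
  rw [h1, ← hxz, ← hzx]
  have hzv : z * ofG (localSubring M) (v : G) = ofG (localSubring M) (v : G) * z :=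
    ((mem_cen.1 (SS_left hz)) v v.2).symm
  calc chiT χ (ofG (localSubring M) (v : G) * (x * z))
      = chiT χ ((ofG (localSubring M) (v : G) * x) * z) := by rw [mul_assoc]
    _ = chiT χ (z * (ofG (localSubring M) (v : G) * x)) := chiT_mul_comm hχ _ _
    _ = chiT χ ((z * ofG (localSubring M) (v : G)) * x) := by rw [mul_assoc]
    _ = chiT χ (ofG (localSubring M) (v : G) * (z * x)) := by rw [hzv, mul_assoc]

end TInv

end Cfsg.Agent.Lib.BFData
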