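import Mathlib
import Cfsg.Agent.Lib.GenChar
import Cfsg.Agent.Lib.BSWAb
import Cfsg.Agent.Lib.StarNorm

/-!
# Signs of the values of endopermutation-type characters

Top-down construction of a generalized character of a finite abelian `p`-group from functions
`X_R` with `|X_R v| = n (R ⊔ ⟨v⟩)`.
-/

set_option autoImplicit false
set_option linter.unusedSectionVars false
set_option linter.unusedVariables false
set_option linter.style.haveILetI false

namespace Cfsg.Agent.Lib.BFSign

open Cfsg Cfsg.Agent.Lib.CharBasic Cfsg.Agent.Lib.CharInd Cfsg.Agent.Lib.GenChar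
open scoped ComplexConjugate

universe u

theorem coprime_two_of_odd {y : ℤ} (h : Odd y) : IsCoprime (2 : ℤ) y := by
  obtain ⟨t, rfl⟩ := h
  exact ⟨-t, 1, by ring⟩

/-- The arithmetic step. -/
theorem dvd_sub_or_add {p : ℕ} (hp : p.Prime) (r : ℕ) {n c q : ℤ} (hn : ¬ (p : ℤ) ∣ n)
    (hq : ((p : ℤ) ^ r) * q = n ^ 2 - c ^ 2) (h2 : p = 2 → 0 < r → Even q) :
    (p : ℤ) ^ r ∣ n - c ∨ (p : ℤ) ^ r ∣ n + c := by
  have hpZ : Prime (p : ℤ) := Nat.prime_iff_prime_int.1 hp
  have hmul : (p : ℤ) ^ r ∣ (n - c) * (n + c) := ⟨q, by rw [hq]; ring⟩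
  by_cases hp2 : p = 2
  · subst hp2
    rcases Nat.eq_zero_or_pos r with rfl | hr
    · left
      simp
    obtain ⟨q', hq'⟩ := h2 rfl hr
    obtain ⟨s, rfl⟩ : ∃ s, r = s + 1 := ⟨r - 1, by omega⟩
    have hnodd : Odd n := by
      rcases Int.even_or_odd n with h | h
      · exact absurd (by exact_mod_cast h.two_dvd) hn
      · exact h
    have hcodd : Odd c := by
      rcases Int.even_or_odd c with h | h
      · exfalso
        have h1 : Even (n ^ 2 - c ^ 2) := by
          rw [← hq, pow_succ]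
          push_cast
          exact ⟨(2 : ℤ) ^ s * q, by ring⟩
        have h3 : Even (c ^ 2) := h.pow_of_ne_zero (by norm_num)
        have h4 : Odd (n ^ 2) := hnodd.pow
        have h5 := h4.sub_even h3
        exact (Int.not_even_iff_odd.2 h5) h1
      · exact h
    obtain ⟨x, hx⟩ : ∃ x, n - c = 2 * x := (hnodd.sub_odd hcodd).two_dvd
    obtain ⟨y, hy⟩ : ∃ y, n + c = 2 * y := (hnodd.add_odd hcodd).two_dvd
    have hxy : x + y = n := by linarith
    have hq2 : (2 : ℤ) ^ s * q' = x * y := by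
      have h1 : (n - c) * (n + c) = n ^ 2 - c ^ 2 := by ring
      rw [hx, hy, ← hq, hq'] at h1
      push_cast at h1
      have h3 : (4 : ℤ) * (2 ^ s * q') = 4 * (x * y) := by
        have : ((2 : ℤ) ^ (s + 1)) * (q' + q') = 4 * (2 ^ s * q') := by ring
        rw [← this, ← h1]
        ring
      linarith
    have hs : (2 : ℤ) ^ s ∣ x * y := ⟨q', hq2.symm⟩
    push_cast
    rcases Int.even_or_odd x with hxe | hxo
    · have hyo : Odd y := by
        rcases Int.even_or_odd y with hye | hyo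
        · exfalso
          have := hxe.add hye
          rw [hxy] at this
          exact (Int.not_even_iff_odd.2 hnodd) this
        · exact hyo
      left
      have h1 : IsCoprime ((2 : ℤ) ^ s) y := (coprime_two_of_odd hyo).pow_left
      have h2' : (2 : ℤ) ^ s ∣ x := h1.dvd_of_dvd_mul_right hs
      rw [hx, pow_succ, mul_comm]
      exact mul_dvd_mul_left 2 h2'
    · right
      have h1 : IsCoprime ((2 : ℤ) ^ s) x := (coprime_two_of_odd hxo).pow_left
      have h2' : (2 : ℤ) ^ s ∣ y := h1.dvd_of_dvd_mul_left hs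
      rw [hy, pow_succ, mul_comm]
      exact mul_dvd_mul_left 2 h2'
  · have hcop : ∀ z : ℤ, ¬ (p : ℤ) ∣ z → IsCoprime ((p : ℤ) ^ r) z := by
      intro z hz
      exact (hpZ.coprime_iff_not_dvd.2 hz).pow_left
    by_cases h1 : (p : ℤ) ∣ n - c
    · left
      have h3 : ¬ (p : ℤ) ∣ n + c := by
        intro h3
        have h4 : (p : ℤ) ∣ 2 * n := by
          have := dvd_add h1 h3
          have h5 : n - c + (n + c) = 2 * n := by ring
          rwa [h5] at this
        rcases hpZ.dvd_or_dvd h4 with h5 | h5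
        · have h6 : p ∣ 2 := by exact_mod_cast h5
          exact hp2 ((Nat.prime_dvd_prime_iff_eq hp Nat.prime_two).1 h6)
        · exact hn h5
      exact (hcop _ h3).dvd_of_dvd_mul_right hmul
    · right
      exact (hcop _ h1).dvd_of_dvd_mul_left hmul

section Ab

variable {A : Type u} [Group A] [Fintype A]

/-- The parity of the norm. -/
theorem even_norm_sub_one (hc : ∀ a b : A, a * b = b * a) {Z : A → ℂ} (hZ : IsGeneralizedCharacter A Z) :
    ∃ a d : ℤ, classInner Z Z = a ∧ Z 1 = d ∧ Even (a - d) := by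
  classical
  obtain ⟨m, rfl⟩ := exists_int_decomp hZ
  refine ⟨∑ i, m i ^ 2, ∑ i, m i, classInner_int_decomp_self m, ?_, ?_⟩
  · simp only [Finset.sum_apply, Pi.smul_apply]
    push_cast
    refine Finset.sum_congr rfl fun i _ => ?_
    rw [Cfsg.Agent.Lib.BSWAb.deg_one hc]
    simp
  · rw [← Finset.sum_sub_distrib]
    apply Finset.even_sum
    intro i _
    have h1 : m i ^ 2 - m i = m i * (m i - 1) := by ring
    rw [h1]
    exact Int.even_mul_pred_self _

/-- The indicator of a subgroup, multiplied by the index, is a generalized character. -/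
theorem isGen_index_indicator (hc : ∀ a b : A, a * b = b * a) (R : Subgroup A) :
    IsGeneralizedCharacter A (fun v => open Classical in if v ∈ R then (R.index : ℂ) else 0) := by
  classical
  letI : Fintype R := Fintype.ofFinite R
  apply Cfsg.Agent.Lib.StarNorm.isGen_of_int_inner
  · intro v t
    have h1 : t * v * t⁻¹ = v := by rw [hc t v]; group
    simp only [h1]
  · intro α
    obtain ⟨n, hn⟩ := classInner_gen_gen (isGen_of_isChar (isCharacter_one (G := R)))
      (isGen_restrict R (isGen_of_isIrr α.2))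
    refine ⟨n, ?_⟩
    rw [← hn]
    unfold classInner
    have h1 : ∑ v : A, (if v ∈ R then (R.index : ℂ) else 0) * conj ((α : A → ℂ) v) =
        (R.index : ℂ) * ∑ r : R, conj ((α : A → ℂ) r) := by
      rw [Finset.mul_sum]
      have h2 : ∀ v : A, (if v ∈ R then (R.index : ℂ) else 0) * conj ((α : A → ℂ) v) =
          if v ∈ R then (R.index : ℂ) * conj ((α : A → ℂ) v) else 0 := by
        intro v
        split_ifs <;> simp
      simp_rw [h2]
      rw [← Finset.sum_filter]
      exact Finset.sum_subtype (Finset.univ.filter (· ∈ R)) (by simp) _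
    rw [h1]
    simp only [one_mul]
    have h3 : (Nat.card R : ℂ) * (R.index : ℂ) = (Nat.card A : ℂ) := by
      exact_mod_cast R.card_mul_index
    have h4 : (Nat.card R : ℂ) ≠ 0 := by exact_mod_cast Nat.card_pos.ne'
    have h5 : (R.index : ℂ) ≠ 0 := by exact_mod_cast Subgroup.index_ne_zero_of_finite
    rw [← h3]
    field_simp

open Subgroup in
/-- The alternating sum over the subgroups above `R`. -/
theorem exists_kappa (R : Subgroup A) (Θ : Subgroup A → ℤ)
    (hgen : ∀ T, R < T → IsGeneralizedCharacter A (fun v => (Θ (T ⊔ zpowers v) : ℂ))) :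
    ∃ κ : A → ℂ, IsGeneralizedCharacter A κ ∧ (∀ v, v ∉ R → κ v = Θ (R ⊔ zpowers v)) ∧
      ∃ c : ℤ, ∀ v ∈ R, κ v = c := by
  classical
  letI : Fintype (Subgroup A) := Fintype.ofFinite _
  set 𝒯 : Finset (Subgroup A) := Finset.univ.filter (R < ·) with h𝒯
  set sgn : Finset (Subgroup A) → ℤ := fun S => (-1) ^ (S.card + 1) with hsgn
  set term : Finset (Subgroup A) → A → ℂ := fun S v => (sgn S : ℂ) * (Θ (S.sup id ⊔ zpowers v) : ℂ) with hterm
  have hsup : ∀ S ∈ 𝒯.powerset.erase ∅, R < S.sup id := by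
    intro S hS
    obtain ⟨h1, h2⟩ := Finset.mem_erase.1 hS
    obtain ⟨T, hT⟩ := Finset.nonempty_iff_ne_empty.2 h1
    have hT' : R < T := by
      have := Finset.mem_powerset.1 h2 hT
      simpa [h𝒯] using this
    exact lt_of_lt_of_le hT' (Finset.le_sup (f := id) hT)
  refine ⟨fun v => ∑ S ∈ 𝒯.powerset.erase ∅, term S v, ?_, ?_, ?_⟩
  · have h1 : (fun v => ∑ S ∈ 𝒯.powerset.erase ∅, term S v) =
        ∑ S ∈ 𝒯.powerset.erase ∅, term S := by
      funext v
      simp
    rw [h1]
    refine isGen_sum _ _ fun S hS => ?_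
    have h2 := isGen_zsmul (hgen _ (hsup S hS)) (sgn S)
    convert h2 using 1
    funext v
    simp [hterm]
  · intro v hv
    show ∑ S ∈ 𝒯.powerset.erase ∅, term S v = _
    set m₀ := R ⊔ zpowers v with hm₀
    have hm₀R : R < m₀ := by
      refine lt_of_le_of_ne le_sup_left fun h => hv ?_
      rw [h]
      exact Subgroup.mem_sup_right (mem_zpowers v)
    have hm₀T : m₀ ∈ 𝒯 := by simpa [h𝒯] using hm₀R
    set 𝒯₀ := 𝒯.erase m₀ with h𝒯₀
    have hins : 𝒯 = insert m₀ 𝒯₀ := (Finset.insert_erase hm₀T).symm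
    have hnm : m₀ ∉ 𝒯₀ := Finset.notMem_erase _ _
    set g : Finset (Subgroup A) → ℂ := fun S => if S = ∅ then 0 else term S v with hg
    have h1 : ∑ S ∈ 𝒯.powerset.erase ∅, term S v = ∑ S ∈ 𝒯.powerset, g S := by
      rw [← Finset.sum_erase 𝒯.powerset (f := g) (a := ∅) (by simp [hg])]
      refine Finset.sum_congr rfl fun S hS => ?_
      simp [hg, (Finset.mem_erase.1 hS).1]
    rw [h1, hins, Finset.sum_powerset_insert hnm, ← Finset.sum_add_distrib,
      Finset.sum_eq_single ∅]
    · have hsm : (m₀ ⊔ zpowers v) = m₀ := by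
        rw [hm₀, sup_assoc, sup_idem]
      simp [hg, hterm, hsgn, hsm]
    · intro S hS hne
      have hSm : m₀ ∉ S := fun h => hnm (Finset.mem_powerset.1 hS h)
      have hne2 : insert m₀ S ≠ ∅ := Finset.insert_ne_empty _ _
      simp only [hg, if_neg hne, if_neg hne2, hterm, hsgn]
      rw [Finset.card_insert_of_notMem hSm, Finset.sup_insert]
      have hSR : R ≤ S.sup id := by
        obtain ⟨T, hT⟩ := Finset.nonempty_iff_ne_empty.2 hne
        have hT' : R < T := by
          have := Finset.mem_erase.1 (Finset.mem_powerset.1 hS hT)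
          simpa [h𝒯] using this.2
        exact hT'.le.trans (Finset.le_sup (f := id) hT)
      have hsup2 : id m₀ ⊔ S.sup id ⊔ zpowers v = S.sup id ⊔ zpowers v := by
        simp only [id, hm₀]
        apply le_antisymm
        · exact sup_le (sup_le (sup_le (hSR.trans le_sup_left) le_sup_right) le_sup_left) le_sup_right
        · exact sup_le (le_sup_of_le_left le_sup_right) le_sup_right
      rw [hsup2]
      push_cast
      ring
    · intro h
      exact absurd (Finset.empty_mem_powerset _) h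
  · refine ⟨∑ S ∈ 𝒯.powerset.erase ∅, sgn S * Θ (S.sup id), fun v hv => ?_⟩
    push_cast
    refine Finset.sum_congr rfl fun S hS => ?_
    simp only [hterm]
    have h1 : S.sup id ⊔ zpowers v = S.sup id := by
      apply sup_eq_left.2
      rw [Subgroup.zpowers_le]
      exact (hsup S hS).le hv
    rw [h1]

open Subgroup in
/-- **One step of the construction.** -/
theorem exists_sign {p : ℕ} (hp : p.Prime) (hA : IsPGroup p A) (hc : ∀ a b : A, a * b = b * a)
    (R : Subgroup A) (n : Subgroup A → ℕ) (Θ : Subgroup A → ℤ) (hn : ¬ p ∣ n R)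
    (hval : ∀ T, R < T → Θ T = n T ∨ Θ T = -(n T))
    (hgen : ∀ T, R < T → IsGeneralizedCharacter A (fun v => (Θ (T ⊔ zpowers v) : ℂ)))
    {X : A → ℂ} (hX : IsGeneralizedCharacter A X)
    (hXn : ∀ v, X v * conj (X v) = (n (R ⊔ zpowers v) : ℂ) ^ 2) :
    ∃ ε : ℤ, (ε = n R ∨ ε = -(n R)) ∧ IsGeneralizedCharacter A
      (fun v => open Classical in if v ∈ R then (ε : ℂ) else (Θ (R ⊔ zpowers v) : ℂ)) := by
  classical
  haveI : Fact p.Prime := ⟨hp⟩
  obtain ⟨κ, hκ, hκ1, c, hκc⟩ := exists_kappa R Θ hgen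
  obtain ⟨r, hr⟩ := IsPGroup.index hA R
  obtain ⟨a, dX, haX, hdX, hevX⟩ := even_norm_sub_one hc hX
  obtain ⟨b, dκ, hbκ, hdκ, hevκ⟩ := even_norm_sub_one hc hκ
  have hdκc : dκ = c := by
    have h1 := hκc 1 R.one_mem
    rw [hdκ] at h1
    exact_mod_cast h1
  subst hdκc
  have hsupR : ∀ v ∈ R, R ⊔ zpowers v = R := by
    intro v hv
    apply sup_eq_left.2
    rw [Subgroup.zpowers_le]
    exact hv
  have hdX2 : dX ^ 2 = (n R : ℤ) ^ 2 := by
    have h1 := hXn 1
    rw [hsupR 1 R.one_mem, hdX] at h1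
    have h2 : ((dX : ℂ)) * conj (dX : ℂ) = (dX : ℂ) ^ 2 := by
      rw [map_intCast, sq]
    rw [h2] at h1
    exact_mod_cast h1
  have hnotp : ¬ (p : ℤ) ∣ (n R : ℤ) := by
    intro h
    exact hn (by exact_mod_cast h)
  -- the norm identity
  have hnorm : (R.index : ℤ) * (a - dκ * 0 - b) = (n R : ℤ) ^ 2 - dκ ^ 2 := by
    have h1 : (Nat.card A : ℂ) * ((a : ℂ) - b) = ∑ v, (X v * conj (X v) - κ v * conj (κ v)) := by
      have hA0 : (Nat.card A : ℂ) ≠ 0 := by exact_mod_cast Nat.card_pos.ne'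
      rw [Finset.sum_sub_distrib]
      unfold classInner at haX hbκ
      rw [← haX, ← hbκ]
      field_simp
    have h2 : ∀ v, X v * conj (X v) - κ v * conj (κ v) =
        if v ∈ R then ((n R : ℂ) ^ 2 - (dκ : ℂ) ^ 2) else 0 := by
      intro v
      by_cases hv : v ∈ R
      · rw [if_pos hv, hXn v, hsupR v hv, hκc v hv, map_intCast, sq (dκ : ℂ)]
      · rw [if_neg hv, hXn v, hκ1 v hv, map_intCast]
        have hlt : R < R ⊔ zpowers v := by
          refine lt_of_le_of_ne le_sup_left fun h => hv ?_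
          rw [h]
          exact Subgroup.mem_sup_right (mem_zpowers v)
        rcases hval _ hlt with h3 | h3 <;> rw [h3] <;> push_cast <;> ring
    rw [Finset.sum_congr rfl fun v _ => h2 v] at h1
    have h3 : ∑ v : A, (if v ∈ R then ((n R : ℂ) ^ 2 - (dκ : ℂ) ^ 2) else 0) =
        (Nat.card R : ℂ) * ((n R : ℂ) ^ 2 - (dκ : ℂ) ^ 2) := by
      letI : Fintype R := Fintype.ofFinite R
      rw [← Finset.sum_filter, Finset.sum_const, nsmul_eq_mul, Nat.card_eq_fintype_card]
      congr 2
      rw [Fintype.card_subtype]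
    rw [h3] at h1
    have h4 : (Nat.card R : ℂ) * (R.index : ℂ) = (Nat.card A : ℂ) := by
      exact_mod_cast R.card_mul_index
    have h5 : (Nat.card R : ℂ) ≠ 0 := by exact_mod_cast Nat.card_pos.ne'
    rw [← h4, mul_assoc] at h1
    have h6 := mul_left_cancel₀ h5 h1
    have h7 : ((R.index : ℤ) * (a - dκ * 0 - b) : ℤ) = (n R : ℤ) ^ 2 - dκ ^ 2 := by
      have : (((R.index : ℤ) * (a - dκ * 0 - b) : ℤ) : ℂ) = (((n R : ℤ) ^ 2 - dκ ^ 2 : ℤ) : ℂ) := by
        push_cast
        rw [← h6]
        ring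
      exact_mod_cast this
    exact h7
  have hrp : (R.index : ℤ) = (p : ℤ) ^ r := by
    rw [hr]
    push_cast
    rfl
  rw [hrp] at hnorm
  have hcases := dvd_sub_or_add hp r hnotp (q := a - dκ * 0 - b) hnorm (by
    intro hp2 hr0
    subst hp2
    have hnodd : Odd (n R : ℤ) := by
      rcases Int.even_or_odd (n R : ℤ) with h | h
      · exact absurd (by exact_mod_cast h.two_dvd) hn
      · exact h
    have hdXodd : Odd dX := by
      rcases Int.even_or_odd dX with h | h
      · exfalso
        have h1 : Even (dX ^ 2) := h.pow_of_ne_zero (by norm_num)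
        rw [hdX2] at h1
        have h4 : Odd ((n R : ℤ) ^ 2) := hnodd.pow
        exact (Int.not_even_iff_odd.2 h4) h1
      · exact h
    have hcodd : Odd dκ := by
      rcases Int.even_or_odd dκ with h | h
      · exfalso
        have h1 : Even ((n R : ℤ) ^ 2 - dκ ^ 2) := by
          rw [← hnorm]
          obtain ⟨s, rfl⟩ : ∃ s, r = s + 1 := ⟨r - 1, by omega⟩
          rw [pow_succ]
          push_cast
          exact ⟨(2 : ℤ) ^ s * (a - dκ * 0 - b), by ring⟩
        have h3 : Even (dκ ^ 2) := h.pow_of_ne_zero (by norm_num)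
        have h4 : Odd ((n R : ℤ) ^ 2) := hnodd.pow
        have h5 := h4.sub_even h3
        exact (Int.not_even_iff_odd.2 h5) h1
      · exact h
    have h1 : a - dκ * 0 - b = (a - dX) - (b - dκ) + (dX - dκ) := by ring
    rw [h1]
    exact (hevX.sub hevκ).add (hdXodd.sub_odd hcodd))
  have hfin : ∀ ε : ℤ, (p : ℤ) ^ r ∣ ε - dκ → IsGeneralizedCharacter A
      (fun v => open Classical in if v ∈ R then (ε : ℂ) else (Θ (R ⊔ zpowers v) : ℂ)) := by
    rintro ε ⟨k, hk⟩
    have h1 := isGen_add hκ (isGen_zsmul (isGen_index_indicator hc R) k)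
    convert h1 using 1
    funext v
    simp only [Pi.add_apply, Pi.smul_apply]
    by_cases hv : v ∈ R
    · simp only [if_pos hv]
      rw [hκc v hv]
      have h2 : (ε : ℂ) = (dκ : ℂ) + ((p : ℂ) ^ r * (k : ℂ)) := by
        have : ε = dκ + (p : ℤ) ^ r * k := by linarith
        rw [this]
        push_cast
        ring
      rw [h2, hr]
      simp only [zsmul_eq_mul]
      push_cast
      ring
    · simp only [if_neg hv]
      rw [hκ1 v hv]
      simp
  rcases hcases with h1 | h1
  · exact ⟨n R, Or.inl rfl, hfin _ h1⟩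
  · refine ⟨-(n R : ℤ), Or.inr rfl, hfin _ ?_⟩
    have h2 : -(n R : ℤ) - dκ = -((n R : ℤ) + dκ) := by ring
    rw [h2]
    exact (dvd_neg).2 h1

open Subgroup in
/-- **The sign lemma.** -/
theorem sign_lemma {p : ℕ} (hp : p.Prime) (hA : IsPGroup p A) (hc : ∀ a b : A, a * b = b * a)
    (n : Subgroup A → ℕ) (hn : ∀ R : Subgroup A, R ≠ ⊥ → ¬ p ∣ n R) (X : Subgroup A → A → ℂ)
    (hX : ∀ R : Subgroup A, R ≠ ⊥ → IsGeneralizedCharacter A (X R))
    (hXn : ∀ R : Subgroup A, R ≠ ⊥ → ∀ v, X R v * conj (X R v) = (n (R ⊔ zpowers v) : ℂ) ^ 2) :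
    ∃ Ξ : A → ℂ, IsGeneralizedCharacter A Ξ ∧ ∀ v, v ≠ 1 →
      Ξ v = (n (zpowers v) : ℂ) ∨ Ξ v = -(n (zpowers v) : ℂ) := by
  classical
  have hmain : ∀ k : ℕ, ∃ Θ : Subgroup A → ℤ, ∀ R : Subgroup A, R ≠ ⊥ → Nat.card A < Nat.card R + k →
      (Θ R = n R ∨ Θ R = -(n R)) ∧ IsGeneralizedCharacter A (fun v => (Θ (R ⊔ zpowers v) : ℂ)) := by
    intro k
    induction k with
    | zero =>
      refine ⟨0, fun R _ h => ?_⟩
      exfalso
      have := Subgroup.card_le_card_group R
      omega
    | succ k ih =>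
      obtain ⟨Θ, hΘ⟩ := ih
      have hgt : ∀ R T : Subgroup A, Nat.card A ≤ Nat.card R + k → R < T → T ≠ ⊥ ∧ Nat.card A < Nat.card T + k := by
        intro R T h1 h2
        have h3 : Nat.card R < Nat.card T := lt_of_le_of_ne (Subgroup.card_le_of_le h2.le)
          (fun h => h2.ne (Subgroup.eq_of_le_of_card_ge h2.le h.ge))
        refine ⟨?_, by omega⟩
        rintro rfl
        exact not_lt_bot h2
      have hstep : ∀ R : Subgroup A, R ≠ ⊥ → Nat.card R + k = Nat.card A → ∃ ε : ℤ, (ε = n R ∨ ε = -(n R)) ∧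
          IsGeneralizedCharacter A (fun v => if v ∈ R then (ε : ℂ) else (Θ (R ⊔ zpowers v) : ℂ)) := by
        intro R hR hk
        convert exists_sign hp hA hc R n Θ (hn R hR) (fun T hT => ?_) (fun T hT => ?_) (hX R hR) (hXn R hR)
        · obtain ⟨h1, h2⟩ := hgt R T hk.ge hT
          exact (hΘ T h1 h2).1
        · obtain ⟨h1, h2⟩ := hgt R T hk.ge hT
          exact (hΘ T h1 h2).2
      choose! ε hε1 hε2 using hstep
      set Θ' : Subgroup A → ℤ := fun R => if R ≠ ⊥ ∧ Nat.card R + k = Nat.card A then ε R else Θ R with hΘ'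
      have hΘ'old : ∀ R : Subgroup A, Nat.card A < Nat.card R + k → Θ' R = Θ R := by
        intro R h
        simp only [hΘ']
        rw [if_neg]
        rintro ⟨-, h2⟩
        omega
      refine ⟨Θ', fun R hR hk => ?_⟩
      by_cases hk2 : Nat.card A < Nat.card R + k
      · obtain ⟨h1, h2⟩ := hΘ R hR hk2
        refine ⟨by rw [hΘ'old R hk2]; exact h1, ?_⟩
        convert h2 using 2 with v
        rw [hΘ'old]
        have h3 : Nat.card R ≤ Nat.card (R ⊔ zpowers v : Subgroup A) := Subgroup.card_le_of_le le_sup_left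
        omega
      · have hk3 : Nat.card R + k = Nat.card A := by omega
        have hval : Θ' R = ε R := by
          simp only [hΘ']
          rw [if_pos ⟨hR, hk3⟩]
        refine ⟨by rw [hval]; exact hε1 R hR hk3, ?_⟩
        convert hε2 R hR hk3 using 2 with v
        by_cases hv : v ∈ R
        · rw [if_pos hv]
          have h1 : R ⊔ zpowers v = R := by
            apply sup_eq_left.2
            rw [Subgroup.zpowers_le]
            exact hv
          rw [h1, hval]
        · rw [if_neg hv, hΘ'old]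
          have hlt : R < R ⊔ zpowers v := by
            refine lt_of_le_of_ne le_sup_left fun h => hv ?_
            rw [h]
            exact Subgroup.mem_sup_right (mem_zpowers v)
          exact (hgt R _ hk3.ge hlt).2
  obtain ⟨Θ, hΘ⟩ := hmain (Nat.card A)
  have hall : ∀ R : Subgroup A, R ≠ ⊥ → (Θ R = n R ∨ Θ R = -(n R)) ∧
      IsGeneralizedCharacter A (fun v => (Θ (R ⊔ zpowers v) : ℂ)) := by
    intro R hR
    refine hΘ R hR ?_
    have : 0 < Nat.card R := Nat.card_pos
    omega
  obtain ⟨κ, hκ, hκ1, -, -⟩ := exists_kappa (⊥ : Subgroup A) Θ (fun T hT => (hall T hT.ne').2)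
  refine ⟨κ, hκ, fun v hv => ?_⟩
  have hv' : v ∉ (⊥ : Subgroup A) := fun h => hv (Subgroup.mem_bot.1 h)
  rw [hκ1 v hv', bot_sup_eq]
  have hzne : zpowers v ≠ ⊥ := by
    intro h
    apply hv
    rwa [Subgroup.zpowers_eq_bot] at h
  rcases (hall _ hzne).1 with h | h
  · left
    rw [h]
    simp
  · right
    rw [h]
    simp

end Ab

end Cfsg.Agent.Lib.BFSign
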