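import Mathlib
import Cfsg.Agent.Lib.BFInt
import Cfsg.Agent.Lib.StarNorm

/-!
# Removing the signs: the quotients `W / Y`
-/

set_option autoImplicit false
set_option linter.unusedSectionVars false
set_option linter.unusedVariables false
set_option linter.style.haveILetI false

namespace Cfsg.Agent.Lib.BFWY

open Cfsg Cfsg.Agent.Lib.CharBasic Cfsg.Agent.Lib.CharInd Cfsg.Agent.Lib.GenChar
open Cfsg.Agent.Lib.BrauerConj Cfsg.Agent.Lib.BSWAb Cfsg.Agent.Lib.BFInt
open Cfsg.Agent.Lib.BlockLocal Cfsg.Agent.Lib.StarNorm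
open scoped ComplexConjugate Classical

universe u

variable {A Γ : Type u} [Group A] [Fintype A] [Group Γ] [Fintype Γ]
  (τ : Γ →* MulAut A) (K : Subgroup Γ) (hK : ∀ g ∈ K, ∀ x, τ g x = x)
  (hfree : ∀ g x, x ≠ 1 → τ g x = x → g ∈ K)

include hK hfree in
theorem card_dvd [Fintype K] {e : ℕ} (hcard : Fintype.card K * e = Fintype.card Γ) (he : 0 < e) :
    e ∣ Nat.card A - 1 := by
  obtain ⟨R, -, hRc, -, -⟩ := Cfsg.Agent.Lib.DcSetup.exists_transversal (A := Γ)
    (fun g v => τ g v) (fun x => by simp) (fun a b x => by simp) he (Finset.univ.erase (1 : A))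
    (fun a x hx => by
      refine Finset.mem_erase.2 ⟨fun h => Finset.ne_of_mem_erase hx ?_, Finset.mem_univ _⟩
      exact (τ a).injective (h.trans (map_one (τ a)).symm))
    (fun x hx => by
      have hx1 := Finset.ne_of_mem_erase hx
      rw [← hcard]
      congr 1
      rw [← Fintype.card_coe]
      refine Fintype.card_congr ?_
      refine ⟨fun g => ⟨g.1, hfree _ _ hx1 (Finset.mem_filter.1 g.2).2⟩,
        fun k => ⟨k.1, Finset.mem_filter.2 ⟨Finset.mem_univ _, hK _ k.2 _⟩⟩,
        fun _ => rfl, fun _ => rfl⟩)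
  rw [Finset.card_erase_of_mem (Finset.mem_univ _), Finset.card_univ, Fintype.card_eq_nat_card] at hRc
  exact ⟨R.card, by rw [← hRc, mul_comm]⟩

theorem isGen_prod {ι : Type*} (s : Finset ι) (f : ι → A → ℂ)
    (h : ∀ i ∈ s, IsGeneralizedCharacter A (f i)) :
    IsGeneralizedCharacter A (fun v => ∏ i ∈ s, f i v) := by
  induction s using Finset.induction_on with
  | empty =>
    simpa using isGen_of_isChar (isCharacter_one (G := A))
  | insert a s ha ih =>
    have h1 := Cfsg.Agent.Lib.StarGen.isGen_mul (h a (Finset.mem_insert_self _ _))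
      (ih fun i hi => h i (Finset.mem_insert_of_mem hi))
    convert h1 using 1
    funext v
    simp [Finset.prod_insert ha]

variable {p : ℕ} {M : Ideal AlgInt}

include hK hfree in
/-- **The quotients.** -/
theorem exists_WY (hM : IsPModular p M) (hA : IsPGroup p A) (hne : ∃ x : A, x ≠ 1) [Fintype K] {e : ℕ}
    (hcard : Fintype.card K * e = Fintype.card Γ) (he : 0 < e)
    (n : A → ℕ) (hnT : ∀ g v, v ≠ 1 → n (τ g v) = n v) (hnp : ∀ v, v ≠ 1 → ¬ p ∣ n v)
    {Ξ : A → ℂ} (hΞ : IsGeneralizedCharacter A Ξ) (hΞn : ∀ v, v ≠ 1 → Ξ v = n v ∨ Ξ v = -(n v)) :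
    ∃ W Y : A → ℂ, IsGeneralizedCharacter A W ∧ IsGeneralizedCharacter A Y ∧
      (∀ v, v ≠ 1 → ∃ z : ℤ, Y v = z ∧ ¬ (p : ℤ) ∣ z) ∧
      (∀ v, v ≠ 1 → (W v / Y v) * (n v) = 1 ∨ (W v / Y v) * (n v) = -1) ∧
      (∀ g v, v ≠ 1 → W (τ g v) / Y (τ g v) = W v / Y v) := by
  haveI hMp := hM.2.1.isPrime
  have hpp : p.Prime := hM.1
  have hne1 : ∀ g (v : A), v ≠ 1 → τ g v ≠ 1 := by
    intro g v hv h
    exact hv ((τ g).injective (h.trans (map_one (τ g)).symm))
  have hn0 : ∀ v, v ≠ 1 → (n v : ℂ) ≠ 0 := by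
    intro v hv h
    have h1 : n v = 0 := by exact_mod_cast h
    exact hnp v hv (by rw [h1]; exact dvd_zero _)
  by_cases hp2 : p = 2
  · -- the even case
    subst hp2
    obtain ⟨x₀, hx₀⟩ := hne
    have hodd : Odd e := by
      have h1 := card_dvd τ K hK hfree hcard he
      obtain ⟨k, hk⟩ := IsPGroup.iff_card.1 hA
      have hk0 : k ≠ 0 := by
        rintro rfl
        have h2 : Nat.card A = 1 := by simpa using hk
        haveI := (Nat.card_eq_one_iff_unique.1 h2).1
        exact hx₀ (Subsingleton.elim _ _)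
      have h3 : Odd (Nat.card A - 1) := by
        rw [hk]
        have h4 : Even (2 ^ k) := (Nat.even_pow.2 ⟨even_two, hk0⟩)
        have h5 : 1 ≤ 2 ^ k := Nat.one_le_two_pow
        exact Nat.Even.sub_odd h5 h4 odd_one
      exact Odd.of_dvd_nat h3 h1
    obtain ⟨m, hm⟩ := hodd
    haveI : Finite τ.range := Finite.of_surjective τ.rangeRestrict τ.rangeRestrict_surjective
    letI : Fintype τ.range := Fintype.ofFinite _
    have hcardH : Fintype.card τ.range = e := by
      have hK' : K = τ.ker := by
        ext g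
        rw [MonoidHom.mem_ker]
        constructor
        · intro hg
          ext x
          exact hK g hg x
        · intro hg
          exact hfree g x₀ hx₀ (by rw [hg]; rfl)
      have h1 := Subgroup.index_ker τ
      have h2 := Subgroup.card_mul_index K
      rw [← Fintype.card_eq_nat_card] at h1
      rw [← h1, ← hK']
      have h3 : Nat.card K ≠ 0 := Nat.card_pos.ne'
      rw [Nat.card_eq_fintype_card, Nat.card_eq_fintype_card, ← hcard] at h2
      exact Nat.eq_of_mul_eq_mul_left Fintype.card_pos h2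
    refine ⟨fun v => (Ξ v * Ξ v) ^ m, fun v => ∏ α : τ.range, Ξ ((α : MulAut A) v), ?_, ?_, ?_, ?_, ?_⟩
    · exact isGen_pow (Cfsg.Agent.Lib.StarGen.isGen_mul hΞ hΞ) m
    · exact isGen_prod _ _ fun α _ => isGen_isCharacter_comp (α : MulAut A).toMonoidHom hΞ
    all_goals
      have hsq : ∀ v, v ≠ 1 → Ξ v * Ξ v = (n v : ℂ) ^ 2 := by
        intro v hv
        rcases hΞn v hv with h | h <;> rw [h] <;> ring
      have hval : ∀ v, v ≠ 1 → ∀ s : Finset τ.range, ∃ z : ℤ, ∏ α ∈ s, Ξ ((α : MulAut A) v) = z ∧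
          (z = (n v : ℤ) ^ s.card ∨ z = -(n v : ℤ) ^ s.card) := by
        intro v hv s
        induction s using Finset.induction_on with
        | empty => exact ⟨1, by simp, by simp⟩
        | insert a s ha ih =>
          obtain ⟨z, hz, hz'⟩ := ih
          obtain ⟨g, hg⟩ := a.2
          have hg' : (a : MulAut A) = τ g := hg.symm
          rw [Finset.prod_insert ha, hz, Finset.card_insert_of_notMem ha, hg']
          rcases hΞn _ (hne1 g v hv) with h | h <;> rw [h, hnT g v hv]
          · refine ⟨(n v : ℤ) * z, by push_cast; ring, ?_⟩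
            rcases hz' with h' | h'
            · left
              rw [h']
              ring
            · right
              rw [h']
              ring
          · refine ⟨-(n v : ℤ) * z, by push_cast; ring, ?_⟩
            rcases hz' with h' | h'
            · right
              rw [h']
              ring
            · left
              rw [h']
              ring
    · intro v hv
      obtain ⟨z, hz, hz'⟩ := hval v hv Finset.univ
      refine ⟨z, hz, fun hd => hnp v hv ?_⟩
      have h1 : ((2 : ℕ) : ℤ) ∣ (n v : ℤ) ^ (Finset.univ : Finset τ.range).card := by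
        rcases hz' with h | h
        · rwa [h] at hd
        · rw [h, dvd_neg] at hd
          exact hd
      have h2 := Int.prime_two.dvd_of_dvd_pow h1
      exact Int.natCast_dvd_natCast.1 h2
    · intro v hv
      obtain ⟨z, hz, hz'⟩ := hval v hv Finset.univ
      rw [Finset.card_univ, hcardH] at hz'
      show ((Ξ v * Ξ v) ^ m / ∏ α : τ.range, Ξ ((α : MulAut A) v)) * (n v) = _ ∨
        ((Ξ v * Ξ v) ^ m / ∏ α : τ.range, Ξ ((α : MulAut A) v)) * (n v) = _
      rw [hz, hsq v hv]
      have h0 := hn0 v hv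
      rcases hz' with h | h
      · left
        rw [h, hm]
        push_cast
        field_simp
        ring
      · right
        rw [h, hm]
        push_cast
        field_simp
        ring
    · intro g v hv
      show ((Ξ (τ g v) * Ξ (τ g v)) ^ m / ∏ α : τ.range, Ξ ((α : MulAut A) (τ g v))) =
        ((Ξ v * Ξ v) ^ m / ∏ α : τ.range, Ξ ((α : MulAut A) v))
      rw [hsq _ (hne1 g v hv), hsq v hv, hnT g v hv]
      have hprod : ∏ α : τ.range, Ξ ((α : MulAut A) (τ g v)) = ∏ α : τ.range, Ξ ((α : MulAut A) v) :=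
        Fintype.prod_equiv (Equiv.mulRight (⟨τ g, g, rfl⟩ : τ.range)) _ _ fun α => rfl
      rw [hprod]
  · -- the odd case
    have hsq : ∀ v, v ≠ 1 → Ξ v * Ξ v = (n v : ℂ) ^ 2 := by
      intro v hv
      rcases hΞn v hv with h | h <;> rw [h] <;> ring
    refine ⟨Ξ, fun v => Ξ v * Ξ v, hΞ, Cfsg.Agent.Lib.StarGen.isGen_mul hΞ hΞ, ?_, ?_, ?_⟩
    · intro v hv
      refine ⟨(n v : ℤ) ^ 2, ?_, fun hd => hnp v hv ?_⟩
      · show Ξ v * Ξ v = _
        rw [hsq v hv]
        push_cast
        rfl
      · have hpp' : Prime (p : ℤ) := Nat.prime_iff_prime_int.1 hpp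
        exact Int.natCast_dvd_natCast.1 (hpp'.dvd_of_dvd_pow hd)
    · intro v hv
      have h0 := hn0 v hv
      rcases hΞn v hv with h | h
      · left
        show Ξ v / (Ξ v * Ξ v) * _ = 1
        rw [h]
        field_simp
      · right
        show Ξ v / (Ξ v * Ξ v) * _ = -1
        rw [h]
        field_simp
    · intro g v hv
      have hmem : ∀ x, MemLocalIdeal M (Ξ x - Ξ 1) := fun x => gen_sub_one_mem hM hA hΞ x
      have h1 := memLocalIdeal_sub (hmem (τ g v)) (hmem v)
      have h2 : Ξ (τ g v) - Ξ 1 - (Ξ v - Ξ 1) = Ξ (τ g v) - Ξ v := by ring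
      rw [h2] at h1
      have h3 : Ξ (τ g v) = Ξ v := by
        have h4 := hΞn _ (hne1 g v hv)
        rw [hnT g v hv] at h4
        have hnot : ¬ MemLocalIdeal M ((2 * n v : ℕ) : ℂ) := by
          rw [memLocalIdeal_natCast_iff hM]
          intro hd
          rcases (Nat.Prime.dvd_mul hpp).1 hd with h5 | h5
          · exact hp2 ((Nat.prime_dvd_prime_iff_eq hpp Nat.prime_two).1 h5)
          · exact hnp v hv h5
        rcases h4 with h4 | h4 <;> rcases hΞn v hv with h5 | h5
        · rw [h4, h5]
        · exfalso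
          apply hnot
          rw [h4, h5] at h1
          convert h1 using 1
          push_cast
          ring
        · exfalso
          apply hnot
          rw [h4, h5] at h1
          have h6 := memLocalIdeal_neg h1
          convert h6 using 1
          push_cast
          ring
        · rw [h4, h5]
      show Ξ (τ g v) / (Ξ (τ g v) * Ξ (τ g v)) = Ξ v / (Ξ v * Ξ v)
      rw [h3]

end Cfsg.Agent.Lib.BFWY
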