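import Mathlib
import Cfsg.Agent.Lib.BFData
import Cfsg.Agent.Lib.BFSign
import Cfsg.Agent.Lib.BFWY

/-!
# The sign character and the coefficients
-/

set_option autoImplicit false
set_option linter.unusedSectionVars false
set_option linter.unusedVariables false
set_option linter.style.haveILetI false

namespace Cfsg.Agent.Lib.BFData

open Polynomial IsLocalRing Cfsg Cfsg.Agent.Lib.StarFit Cfsg.Agent.Lib.StarGrp
open Cfsg.Agent.Lib.StarLoc Cfsg.Agent.Lib.BlockLocal Cfsg.Agent.Lib.BlockCover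
open Cfsg.Agent.Lib.BlockResidue Cfsg.Agent.Lib.BrauerMap Cfsg.Agent.Lib.BrauerPair
open Cfsg.Agent.Lib.BrauerSub Cfsg.Agent.Lib.BlockIdem Cfsg.Agent.Lib.CharIntegrality
open Cfsg.Agent.Lib.BlkBasic Cfsg.Agent.Lib.StarBlk Cfsg.Agent.Lib.StarP Cfsg.Agent.Lib.StarTh
open Cfsg.Agent.Lib.StarFit.LocSys Cfsg.Agent.Lib.GenChar Cfsg.Agent.Lib.CharBasic
open Cfsg.Agent.Lib.CharInd Cfsg.Agent.Lib.StarGen Cfsg.Agent.Lib.BrauerConj
open Cfsg.Agent.Lib.BrauerCen Cfsg.Agent.Lib.BrauerMax Cfsg.Agent.Lib.StarII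
open Cfsg.Agent.Lib.StarGlob Cfsg.Agent.Lib.BlockOrtho Cfsg.Agent.Lib.StarInner
open Cfsg.Agent.Lib.BFNorm Cfsg.Agent.Lib.BFSrc Cfsg.Agent.Lib.StarNil Cfsg.Agent.Lib.BFCol
open Cfsg.Agent.Lib.BFLevel Cfsg.Agent.Lib.StarNorm Cfsg.Agent.Lib.BrauerStab
open Cfsg.Agent.Lib.BFSign Cfsg.Agent.Lib.BFWY Cfsg.Agent.Lib.BFInt
open scoped ComplexConjugate

universe u

variable {G : Type u} [Group G] [Fintype G] {p : ℕ} [hp : Fact p.Prime] {M : Ideal AlgInt}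
  [hMp : M.IsPrime]

local notation "𝐂[" R "]" => Subgroup.centralizer ((R : Subgroup G) : Set G)
local notation "𝐍[" R "]" => Subgroup.normalizer ((R : Subgroup G) : Set G)

noncomputable local instance fintypeSubBFX {A : Type*} [Group A] [Finite A] (K : Subgroup A) : Fintype K :=
  Fintype.ofFinite K

variable {B : Set (IrrCharacter G)} {P : Subgroup G} {c : BlockT M (Subgroup.centralizer (P : Set G))}
  {T : Subgroup G}

namespace LD

variable {h : FS p M B P c T} {i : MonoidAlgebra (localSubring M) G} (d : LD h i)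

/-- The absolute value of the level. -/
noncomputable def nn (S : Subgroup G) : ℕ := ⌊(d.nu S).re⌋.natAbs

theorem nu_spec {S : Subgroup G} (hS : S ≤ P) (h1 : S ≠ ⊥) :
    ∃ z : ℤ, d.nu S = z ∧ d.nn S = z.natAbs := by
  obtain ⟨z, hz⟩ := d.nu_int hS h1
  refine ⟨z, hz, ?_⟩
  unfold nn
  rw [hz]
  simp

theorem nu_eq_nn {S : Subgroup G} (hS : S ≤ P) (h1 : S ≠ ⊥) :
    d.nu S = d.nn S ∨ d.nu S = -(d.nn S : ℂ) := by
  obtain ⟨z, hz, hn⟩ := d.nu_spec hS h1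
  rw [hz, hn]
  rcases Int.natAbs_eq z with h2 | h2
  · left
    conv_lhs => rw [h2]
    simp
  · right
    conv_lhs => rw [h2]
    simp

theorem nu_conj {S : Subgroup G} (hS : S ≤ P) (h1 : S ≠ ⊥) :
    d.nu S * conj (d.nu S) = (d.nn S : ℂ) ^ 2 := by
  rcases d.nu_eq_nn hS h1 with h2 | h2 <;> rw [h2] <;> simp [pow_two]

theorem nn_not_dvd {χ₀ : G → ℂ} (hχ₀ : IsCharacter G χ₀) (hS : IsSrc P c χ₀ i) {S : Subgroup G} (hSP : S ≤ P)
    (h1 : S ≠ ⊥) : ¬ p ∣ d.nn S := by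
  intro hd
  apply d.nu_unit hχ₀ hS hSP h1
  obtain ⟨z, hz, hn⟩ := d.nu_spec hSP h1
  rw [hz, memLocalIdeal_intCast_iff h.hM]
  rw [hn] at hd
  exact Int.natCast_dvd.2 hd

theorem exists_Xi {χ₀ : G → ℂ} (hχ₀ : IsCharacter G χ₀) (hS : IsSrc P c χ₀ i) :
    ∃ Ξ : P → ℂ, IsGeneralizedCharacter P Ξ ∧ ∀ v : P, v ≠ 1 →
      Ξ v = (d.nn (Subgroup.zpowers (v : G)) : ℂ) ∨ Ξ v = -(d.nn (Subgroup.zpowers (v : G)) : ℂ) := by
  classical
  have hA : IsPGroup p P := h.hPp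
  have hc : ∀ a b : P, a * b = b * a := fun a b => Subtype.ext (h.hab _ a.2 _ b.2)
  have hmap : ∀ R : Subgroup P, R.map P.subtype ≤ P := fun R => Subgroup.map_subtype_le R
  have hmap1 : ∀ R : Subgroup P, R ≠ ⊥ → R.map P.subtype ≠ ⊥ := by
    intro R hR h0
    apply hR
    exact (Subgroup.map_eq_bot_iff_of_injective R (Subgroup.subtype_injective P)).1 h0
  set n : Subgroup P → ℕ := fun R => d.nn (R.map P.subtype) with hn
  have hz : ∀ v : P, (Subgroup.zpowers v).map P.subtype = Subgroup.zpowers (v : G) := by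
    intro v
    rw [MonoidHom.map_zpowers]
    rfl
  set X : Subgroup P → P → ℂ := fun R => if hR : R ≠ ⊥ then d.XX (hmap R) (hmap1 R hR) else 0 with hX
  have hXR : ∀ R (hR : R ≠ ⊥), X R = d.XX (hmap R) (hmap1 R hR) := fun R hR => dif_pos hR
  obtain ⟨Ξ, hΞ, hΞn⟩ := sign_lemma hp.out hA hc n (fun R hR => d.nn_not_dvd hχ₀ hS (hmap R) (hmap1 R hR)) X
    (fun R hR => by
      rw [hXR R hR]
      exact d.XX_isGen _ _)
    (fun R hR v => by
      rw [hXR R hR]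
      obtain ⟨ζ, h1, -, h2⟩ := d.XX_level (hmap R) (hmap1 R hR) v
      have h3 : (R ⊔ Subgroup.zpowers v).map P.subtype = R.map P.subtype ⊔ Subgroup.zpowers (v : G) := by
        rw [Subgroup.map_sup, hz]
      have hn3 : n (R ⊔ Subgroup.zpowers v) = d.nn (R.map P.subtype ⊔ Subgroup.zpowers (v : G)) := by
        rw [hn]
        simp only
        rw [h3]
      have hle : R.map P.subtype ⊔ Subgroup.zpowers (v : G) ≤ P := sup_le (hmap R) (zp_le_of_mem v)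
      have hne : R.map P.subtype ⊔ Subgroup.zpowers (v : G) ≠ ⊥ :=
        fun h0 => hmap1 R hR (le_bot_iff.1 (h0 ▸ le_sup_left))
      rw [hn3, h2, map_mul, ← d.nu_conj hle hne]
      calc ζ * d.nu _ * (conj ζ * conj (d.nu _)) = (ζ * conj ζ) * (d.nu _ * conj (d.nu _)) := by ring
        _ = _ := by rw [h1, one_mul])
  refine ⟨Ξ, hΞ, fun v hv => ?_⟩
  have h1 := hΞn v hv
  rw [hn] at h1
  simp only [hz] at h1
  exact h1

theorem FF_mul_conj {χ₀ : G → ℂ} (hS : IsSrc P c χ₀ i) {χ χ' : G → ℂ} (hχ : IsClassFunction G χ)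
    (hχ' : IsClassFunction G χ') {w : P} (hw : w ≠ 1) :
    FF (P := P) i χ w * conj (FF (P := P) i χ' w) =
      (((𝐂[P]).relIndex T : ℕ) : ℂ) * (Nat.card P : ℂ) * cc h.hM h.hmax.1.1 χ χ' w *
        (d.nn (Subgroup.zpowers (w : G)) : ℂ) ^ 2 := by
  have h1 := zp_ne_bot hw
  rw [d.FF_value hS hχ hw h1, d.FF_value hS hχ' hw h1, cc_G h hw (d.L _ (zp_le_of_mem w) h1) hχ hχ',
    ← d.nu_conj (zp_le_of_mem w) h1, map_mul]
  have h2 : (Nat.card P : ℂ) ≠ 0 := by exact_mod_cast Nat.card_pos.ne'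
  have h3 : (((𝐂[P]).relIndex T : ℕ) : ℂ) ≠ 0 := by
    have : (𝐂[P]).relIndex T ≠ 0 := Subgroup.index_ne_zero_of_finite
    exact_mod_cast this
  field_simp

include d in
theorem FF_unit {χ₀ : G → ℂ} (hχ₀ : IsCharacter G χ₀) (hS : IsSrc P c χ₀ i) (v : P) :
    ¬ MemLocalIdeal M (FF (P := P) i χ₀ v) := by
  intro h0
  apply hS.unit
  have h2 := gen_sub_one_mem h.hM h.hPp (FF_isGen hS hχ₀) v
  have h5 := memLocalIdeal_sub h0 h2
  rw [← FF_one]
  convert h5 using 1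
  ring

theorem nn_T (hP1 : P ≠ ⊥) {χ₀ : G → ℂ} (hχ₀ : IsCharacter G χ₀) (hS : IsSrc P c χ₀ i) {t : G} (ht : t ∈ T)
    {v : P} (hv : v ≠ 1) :
    d.nn (Subgroup.zpowers (t * (v : G) * t⁻¹)) = d.nn (Subgroup.zpowers (v : G)) := by
  have hc₀ := isClassFunction_of_isCharacter hχ₀
  set v' : P := ⟨t * (v : G) * t⁻¹, conj_mem_of_T h.hT ht v⟩ with hv'
  have hv'1 : v' ≠ 1 := by
    intro h0
    apply hv
    have h1 : t * (v : G) * t⁻¹ = 1 := congrArg (fun z : P => (z : G)) h0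
    apply Subtype.ext
    have h2 : (v : G) = t⁻¹ * (t * (v : G) * t⁻¹) * t := by group
    rw [h2, h1]
    simp
  have h1 := d.FF_mul_conj hS hc₀ hc₀ hv
  have h2 := d.FF_mul_conj hS hc₀ hc₀ hv'1
  have h3 : FF (P := P) i χ₀ v' = FF (P := P) i χ₀ v := FF_T h hP1 d hχ₀ hS ht hc₀ v
  have h4 : cc h.hM h.hmax.1.1 χ₀ χ₀ v' = cc h.hM h.hmax.1.1 χ₀ χ₀ v := cc_conj_T h.hM h.hmax.1.1 h.hT hc₀ hc₀ ht v
  rw [h3, h4, h1] at h2
  have h5 : FF (P := P) i χ₀ v ≠ 0 := fun h0 => d.FF_unit hχ₀ hS v (by rw [h0]; exact memLocalIdeal_zero)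
  have h6 : FF (P := P) i χ₀ v * conj (FF (P := P) i χ₀ v) ≠ 0 := mul_ne_zero h5 (by simpa using h5)
  rw [h1] at h6
  have h7 := left_ne_zero_of_mul h6
  have h8 := mul_left_cancel₀ h7 h2
  have h9 : ((d.nn (Subgroup.zpowers (v : G)) : ℝ)) ^ 2 = (d.nn (Subgroup.zpowers (v' : G)) : ℝ) ^ 2 := by
    exact_mod_cast h8
  have h10 : d.nn (Subgroup.zpowers (v : G)) = d.nn (Subgroup.zpowers (v' : G)) := by
    have h11 := (sq_eq_sq₀ (Nat.cast_nonneg _) (Nat.cast_nonneg _)).1 h9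
    exact_mod_cast h11
  exact h10.symm

end LD

section Hst

variable {e : Set (IrrCharacter (Subgroup.centralizer (P : Set G)))}

/-- The stability condition for functions invariant under the stabilizer. -/
theorem hst_of_T (hM : IsPModular p M) (hmax : IsMaximalBrauerPair p M B P e)
    (hab : ∀ x ∈ P, ∀ y ∈ P, x * y = y * x)
    (hT : ∀ g : G, g ∈ T ↔ (g ∈ 𝐍[P] ∧ StabilizesBlock 𝐂[P] e g))
    {lam : G → ℂ} (hlam : ∀ t ∈ T, ∀ w ∈ P, lam (t * w * t⁻¹) = lam w)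
    (u : G) (x : MonoidAlgebra (localSubring M) G) (g g' : G) (hg : Wit p M P e u x g)
    (hg' : Wit p M P e u x g') : lam (g * u * g⁻¹) = lam (g' * u * g'⁻¹) := by
  obtain ⟨b, rfl, hb⟩ := hg
  obtain ⟨b', hbb, hb'⟩ := hg'
  obtain rfl : b = b' := eB_inj _ hbb
  set i : Idx G M := ⟨u, b⟩ with hi
  have hi1 : W2 p M P e i g := hb
  have hi2 : W2 p M P e i g' := hb'
  have h1 : W2 p M P e (act g i) 1 := by
    have := (W2_act (p := p) (P := P) (e := e) g i g).2 hi1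
    rwa [mul_inv_cancel] at this
  have h2 : W2 p M P e (act g i) (g' * g⁻¹) := (W2_act (p := p) (P := P) (e := e) g i g').2 hi2
  obtain ⟨w, hw⟩ := exists_idxP_eq hM hmax.1.1 h1
  have hwu : (w : G) = g * u * g⁻¹ := congrArg Sigma.fst hw
  rw [← hw, W2_idxP_iff hM hmax hab hT] at h2
  obtain ⟨t, ht, k, hk, hgt⟩ := h2
  have h3 : g' * u * g'⁻¹ = t * (w : G) * t⁻¹ := by
    have h4 : k * (w : G) * k⁻¹ = w := by
      rw [← (Subgroup.mem_centralizer_iff.1 hk) (w : G) (Subgroup.mem_zpowers _)]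
      group
    calc g' * u * g'⁻¹ = (g' * g⁻¹) * (g * u * g⁻¹) * (g' * g⁻¹)⁻¹ := by group
      _ = (t * k) * (w : G) * (t * k)⁻¹ := by rw [hgt, hwu]
      _ = t * (k * (w : G) * k⁻¹) * t⁻¹ := by group
      _ = _ := by rw [h4]
  rw [h3, hlam t ht _ w.2, ← hwu]

end Hst

end Cfsg.Agent.Lib.BFData
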