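import Mathlib
import Cfsg.Agent.Lib.BFXi

/-!
# Orthogonality of columns for a block with free inertial action
-/

set_option autoImplicit false
set_option linter.unusedSectionVars false
set_option linter.unusedVariables false
set_option linter.style.haveILetI false

namespace Cfsg.Agent.Lib.BFData

open Polynomial IsLocalRing Cfsg Cfsg.Agent.Lib.StarFit Cfsg.Agent.Lib.StarGrp
open Cfsg.Agent.Lib.StarLoc Cfsg.Agent.Lib.BlockLocal Cfsg.Agent.Lib.BlockCover
open Cfsg.Agent.Lib.BlockResidue Cfsg.Agent.Lib.BrauerMap Cfsg.Agent.Lib.BrauerPair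
open Cfsg.Agent.Lib.BrauerSub Cfsg.Agent.Lib.BlockIdem Cfsg.Agent.Lib.CharIntegrality
open Cfsg.Agent.Lib.BlkBasic Cfsg.Agent.Lib.StarBlk Cfsg.Agent.Lib.StarP Cfsg.Agent.Lib.StarTh
open Cfsg.Agent.Lib.StarFit.LocSys Cfsg.Agent.Lib.GenChar Cfsg.Agent.Lib.CharBasic
open Cfsg.Agent.Lib.CharInd Cfsg.Agent.Lib.StarGen Cfsg.Agent.Lib.BrauerConj
open Cfsg.Agent.Lib.BrauerCen Cfsg.Agent.Lib.BrauerMax Cfsg.Agent.Lib.StarII
open Cfsg.Agent.Lib.StarGlob Cfsg.Agent.Lib.BlockOrtho Cfsg.Agent.Lib.StarInner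
open Cfsg.Agent.Lib.BFNorm Cfsg.Agent.Lib.BFSrc Cfsg.Agent.Lib.StarNil Cfsg.Agent.Lib.BFCol
open Cfsg.Agent.Lib.BFLevel Cfsg.Agent.Lib.StarNorm Cfsg.Agent.Lib.BrauerStab
open Cfsg.Agent.Lib.BFSign Cfsg.Agent.Lib.BFWY Cfsg.Agent.Lib.BFInt
open scoped ComplexConjugate

universe u

variable {G : Type u} [Group G] [Fintype G] {p : ℕ} [hp : Fact p.Prime] {M : Ideal AlgInt}
  [hMp : M.IsPrime]

local notation "𝐂[" R "]" => Subgroup.centralizer ((R : Subgroup G) : Set G)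
local notation "𝐍[" R "]" => Subgroup.normalizer ((R : Subgroup G) : Set G)

noncomputable local instance fintypeSubBFO {A : Type*} [Group A] [Finite A] (K : Subgroup A) : Fintype K :=
  Fintype.ofFinite K

variable {B : Set (IrrCharacter G)} {P : Subgroup G} {c : BlockT M (Subgroup.centralizer (P : Set G))}
  {T : Subgroup G}

section LamO

open Classical in
/-- The function counting the conjugates of `v` under `T`. -/
noncomputable def lamO (T : Subgroup G) (v x : G) : ℂ :=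
  ∑ t : T, if (t : G) * v * (t : G)⁻¹ = x then 1 else 0

theorem lamO_T (v : G) {s : G} (hs : s ∈ T) (x : G) : lamO T v (s * x * s⁻¹) = lamO T v x := by
  classical
  unfold lamO
  refine Fintype.sum_equiv (Equiv.mulLeft (⟨s, hs⟩ : T)⁻¹) _ _ fun t => ?_
  have h1 : (t : G) * v * (t : G)⁻¹ = s * x * s⁻¹ ↔
      (((⟨s, hs⟩ : T)⁻¹ * t : T) : G) * v * (((⟨s, hs⟩ : T)⁻¹ * t : T) : G)⁻¹ = x := by
    push_cast
    constructor
    · intro h
      calc s⁻¹ * (t : G) * v * (s⁻¹ * (t : G))⁻¹ = s⁻¹ * ((t : G) * v * (t : G)⁻¹) * s := by group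
        _ = x := by rw [h]; group
    · intro h
      rw [← h]
      group
  simp only [Equiv.coe_mulLeft]
  exact if_congr h1 rfl rfl

theorem sum_lamO (hTP : ∀ t ∈ T, ∀ w ∈ P, t * w * t⁻¹ ∈ P) (v : P) (F : P → ℂ) :
    ∑ x : P, lamO T (v : G) (x : G) * F x =
      ∑ t : T, F ⟨(t : G) * (v : G) * (t : G)⁻¹, hTP _ t.2 _ v.2⟩ := by
  classical
  unfold lamO
  simp_rw [Finset.sum_mul]
  rw [Finset.sum_comm]
  refine Finset.sum_congr rfl fun t _ => ?_
  rw [Finset.sum_eq_single (⟨(t : G) * (v : G) * (t : G)⁻¹, hTP _ t.2 _ v.2⟩ : P)]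
  · simp
  · intro b _ hb
    rw [if_neg, zero_mul]
    intro h0
    exact hb (Subtype.ext h0.symm)
  · intro h0
    exact absurd (Finset.mem_univ _) h0

theorem conj_lamO (v x : G) : conj (lamO T v x) = lamO T v x := by
  classical
  unfold lamO
  rw [map_sum]
  refine Finset.sum_congr rfl fun t _ => ?_
  split_ifs <;> simp

end LamO

section Parseval

variable {X : Type u} [Group X] [Fintype X]

theorem parseval {f g : X → ℂ} (hf : IsClassFunction X f) (hg : IsClassFunction X g) :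
    classInner f g = ∑ ξ : IrrCharacter X, classInner f (ξ : X → ℂ) * conj (classInner g (ξ : X → ℂ)) := by
  classical
  conv_lhs => rw [classFunction_eq_sum hf]
  rw [classInner_sum_left]
  refine Finset.sum_congr rfl fun ξ _ => ?_
  rw [classInner_smul_left, classInner_conj_symm]

end Parseval

section Raw

variable (h : FS p M B P c T) {χ₀ : IrrCharacter G} (hχ₀ : χ₀ ∈ B)

theorem sum_subtype_B [Fintype B] (f : IrrCharacter G → ℂ) (h0 : ∀ ξ, ξ ∉ B → f ξ = 0) :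
    ∑ ξ : B, f ξ = ∑ ξ, f ξ := by
  classical
  have h1 := Finset.sum_subtype (F := inferInstanceAs (Fintype B)) (Finset.univ.filter (· ∈ B)) (p := (· ∈ B)) (by simp) f
  rw [← h1]
  exact Finset.sum_subset (Finset.subset_univ _) (fun ξ _ hξ => h0 ξ (by simpa using hξ))

include h in
theorem hst_lamO (v : G) : ∀ u (x : MonoidAlgebra (localSubring M) G) g g', Wit p M P c.1 u x g →
    Wit p M P c.1 u x g' → lamO T v (g * u * g⁻¹) = lamO T v (g' * u * g'⁻¹) :=
  hst_of_T h.hM h.hmax h.hab h.hT (fun t ht w _ => lamO_T v ht w)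

theorem hst_one' : ∀ u (x : MonoidAlgebra (localSubring M) G) g g', Wit p M P c.1 u x g →
    Wit p M P c.1 u x g' → (fun _ : G => (1 : ℂ)) (g * u * g⁻¹) = (fun _ : G => (1 : ℂ)) (g' * u * g'⁻¹) :=
  fun _ _ _ _ _ _ => rfl

include h in
/-- The scalar products of characters of the block in terms of coefficients. -/
theorem sum_cc {χ χ' : IrrCharacter G} (hχ : χ ∈ B) (hχ' : χ' ∈ B) :
    classInner (χ : G → ℂ) (χ' : G → ℂ) = ∑ w : P, cc h.hM h.hmax.1.1 (χ : G → ℂ) (χ' : G → ℂ) w := by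
  have hc := isClassFunction_of_isCharacter (IsIrrCharacter.isCharacter χ.2)
  have hc' := isClassFunction_of_isCharacter (IsIrrCharacter.isCharacter χ'.2)
  have h1 := inner_TT_LamH h.hM h.hmax.1.1 hc hc' (lam := fun _ => 1) (lam' := fun _ => 1) hst_one' hst_one'
  rw [TT_LamH_one h.hM h.hmax hst_one' (fun _ _ => rfl) hχ, TT_LamH_one h.hM h.hmax hst_one' (fun _ _ => rfl) hχ'] at h1
  rw [h1]
  simp

theorem hTP_of (h : FS p M B P c T) : ∀ t ∈ T, ∀ w ∈ P, t * w * t⁻¹ ∈ P :=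
  fun t ht w hw => conj_mem_of_T h.hT ht ⟨w, hw⟩

include h hχ₀ in
/-- **The raw orthogonality relation.** -/
theorem gram_raw [Fintype B] (u v : P) :
    (Fintype.card T : ℂ) * ∑ ξ : B, cc h.hM h.hmax.1.1 (χ₀ : G → ℂ) ((ξ : IrrCharacter G) : G → ℂ) u *
        conj (cc h.hM h.hmax.1.1 (χ₀ : G → ℂ) ((ξ : IrrCharacter G) : G → ℂ) v) =
      lamO T (v : G) (u : G) * cc h.hM h.hmax.1.1 (χ₀ : G → ℂ) (χ₀ : G → ℂ) u := by
  classical
  have hM := h.hM
  have he := h.hmax.1.1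
  have hc₀ := isClassFunction_of_isCharacter (IsIrrCharacter.isCharacter χ₀.2)
  have hTP := hTP_of h
  have hTc : (Fintype.card T : ℂ) ≠ 0 := by exact_mod_cast Fintype.card_ne_zero
  set Θ : P → G → ℂ := fun y => TT p M (LamH p M P c.1 (lamO T (y : G))) (χ₀ : G → ℂ) with hΘ
  have hΘc : ∀ y, IsClassFunction G (Θ y) := fun y =>
    TT_isClass hM hc₀ (lamH_conj (hst_lamO h (y : G)))
  -- sums over the orbit
  have horb : ∀ (y : P) (F : P → ℂ), (∀ t (ht : t ∈ T) (w : P), F ⟨t * (w : G) * t⁻¹, hTP t ht _ w.2⟩ = F w) →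
      ∑ x : P, lamO T (y : G) (x : G) * F x = (Fintype.card T : ℂ) * F y := by
    intro y F hF
    rw [sum_lamO hTP]
    have : ∀ t : T, F ⟨(t : G) * (y : G) * (t : G)⁻¹, hTP _ t.2 _ y.2⟩ = F y := fun t => hF t t.2 y
    simp only [this, Finset.sum_const, Finset.card_univ, nsmul_eq_mul]
  have hin : ∀ (y : P) (ξ : IrrCharacter G), ξ ∈ B → classInner (Θ y) (ξ : G → ℂ) =
      (Fintype.card T : ℂ) * cc hM he (χ₀ : G → ℂ) (ξ : G → ℂ) y := by
    intro y ξ hξ
    have hξc := isClassFunction_of_isCharacter (IsIrrCharacter.isCharacter ξ.2)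
    have h1 := inner_TT_LamH hM he hc₀ hξc (hst_lamO h (y : G)) (lam' := fun _ => 1) hst_one'
    rw [TT_LamH_one hM h.hmax hst_one' (fun _ _ => rfl) hξ] at h1
    rw [show Θ y = TT p M (LamH p M P c.1 (lamO T (y : G))) (χ₀ : G → ℂ) from rfl, h1]
    simp only [map_one, mul_one]
    exact horb y _ (fun t ht w => cc_conj_T hM he h.hT hc₀ hξc ht w)
  have hout : ∀ (y : P) (ξ : IrrCharacter G), ξ ∉ B → classInner (Θ y) (ξ : G → ℂ) = 0 := by
    intro y ξ hξ
    exact classInner_TT_of_not_mem hM h.hmax hξ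
  have hΘΘ : classInner (Θ u) (Θ v) = (Fintype.card T : ℂ) *
      (lamO T (v : G) (u : G) * cc hM he (χ₀ : G → ℂ) (χ₀ : G → ℂ) u) := by
    have h1 := inner_TT_LamH hM he hc₀ hc₀ (hst_lamO h (u : G)) (hst_lamO h (v : G))
    rw [show Θ u = TT p M (LamH p M P c.1 (lamO T (u : G))) (χ₀ : G → ℂ) from rfl,
      show Θ v = TT p M (LamH p M P c.1 (lamO T (v : G))) (χ₀ : G → ℂ) from rfl, h1]
    simp only [conj_lamO, mul_assoc]
    refine horb u (fun w => lamO T (v : G) (w : G) * cc hM he (χ₀ : G → ℂ) (χ₀ : G → ℂ) w) ?_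
    intro t ht w
    show lamO T (v : G) (t * (w : G) * t⁻¹) * cc hM he (χ₀ : G → ℂ) (χ₀ : G → ℂ) ⟨t * (w : G) * t⁻¹, hTP t ht _ w.2⟩ = _
    rw [lamO_T _ ht, cc_conj_T hM he h.hT hc₀ hc₀ ht w]
  have hpar := parseval (hΘc u) (hΘc v)
  rw [hΘΘ, ← sum_subtype_B _ (fun ξ hξ => by rw [hout u ξ hξ, zero_mul])] at hpar
  have h3 : ∀ ξ : B, classInner (Θ u) ((ξ : IrrCharacter G) : G → ℂ) * conj (classInner (Θ v) ((ξ : IrrCharacter G) : G → ℂ)) =
      (Fintype.card T : ℂ) * ((Fintype.card T : ℂ) * (cc hM he (χ₀ : G → ℂ) ((ξ : IrrCharacter G) : G → ℂ) u *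
        conj (cc hM he (χ₀ : G → ℂ) ((ξ : IrrCharacter G) : G → ℂ) v))) := by
    intro ξ
    rw [hin u _ ξ.2, hin v _ ξ.2, map_mul, Complex.conj_natCast]
    ring
  simp only [h3] at hpar
  rw [← Finset.mul_sum, ← Finset.mul_sum] at hpar
  exact (mul_left_cancel₀ hTc hpar).symm

end Raw

end Cfsg.Agent.Lib.BFData
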