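import Mathlib
import Cfsg.Agent.Lib.BFOrth

/-!
# The integer matrix and the count of characters
-/

set_option autoImplicit false
set_option linter.unusedSectionVars false
set_option linter.unusedVariables false
set_option linter.style.haveILetI false

namespace Cfsg.Agent.Lib.BFData

open Polynomial IsLocalRing Cfsg Cfsg.Agent.Lib.StarFit Cfsg.Agent.Lib.StarGrp
open Cfsg.Agent.Lib.StarLoc Cfsg.Agent.Lib.BlockLocal Cfsg.Agent.Lib.BlockCover
open Cfsg.Agent.Lib.BlockResidue Cfsg.Agent.Lib.BrauerMap Cfsg.Agent.Lib.BrauerPair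
open Cfsg.Agent.Lib.BrauerSub Cfsg.Agent.Lib.BlockIdem Cfsg.Agent.Lib.CharIntegrality
open Cfsg.Agent.Lib.BlkBasic Cfsg.Agent.Lib.StarBlk Cfsg.Agent.Lib.StarP Cfsg.Agent.Lib.StarTh
open Cfsg.Agent.Lib.StarFit.LocSys Cfsg.Agent.Lib.GenChar Cfsg.Agent.Lib.CharBasic
open Cfsg.Agent.Lib.CharInd Cfsg.Agent.Lib.StarGen Cfsg.Agent.Lib.BrauerConj
open Cfsg.Agent.Lib.BrauerCen Cfsg.Agent.Lib.BrauerMax Cfsg.Agent.Lib.StarII
open Cfsg.Agent.Lib.StarGlob Cfsg.Agent.Lib.BlockOrtho Cfsg.Agent.Lib.StarInner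
open Cfsg.Agent.Lib.BFNorm Cfsg.Agent.Lib.BFSrc Cfsg.Agent.Lib.StarNil Cfsg.Agent.Lib.BFCol
open Cfsg.Agent.Lib.BFLevel Cfsg.Agent.Lib.StarNorm Cfsg.Agent.Lib.BrauerStab
open Cfsg.Agent.Lib.BFSign Cfsg.Agent.Lib.BFWY Cfsg.Agent.Lib.BFInt Cfsg.Agent.Lib.BrauerSat
open scoped ComplexConjugate Classical

universe u

variable {G : Type u} [Group G] [Fintype G] {p : ℕ} [hp : Fact p.Prime] {M : Ideal AlgInt}
  [hMp : M.IsPrime]

local notation "𝐂[" R "]" => Subgroup.centralizer ((R : Subgroup G) : Set G)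
local notation "𝐍[" R "]" => Subgroup.normalizer ((R : Subgroup G) : Set G)

noncomputable local instance fintypeSubBFCn {A : Type*} [Group A] [Finite A] (K : Subgroup A) : Fintype K :=
  Fintype.ofFinite K

variable {B : Set (IrrCharacter G)} {P : Subgroup G} {c : BlockT M (Subgroup.centralizer (P : Set G))}
  {T : Subgroup G}

section Tau

theorem hTN_of (h : FS p M B P c T) : T ≤ 𝐍[P] := fun t ht => ((h.hT t).1 ht).1

variable (h : FS p M B P c T)

/-- The action of the stabilizer on the defect group. -/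
noncomputable abbrev tau : T →* MulAut P := theta (hTN_of h)

/-- The elements acting trivially. -/
abbrev kerT (P T : Subgroup G) : Subgroup T := (𝐂[P]).subgroupOf T

theorem tau_val (t : T) (v : P) : ((tau h t v : P) : G) = (t : G) * v * (t : G)⁻¹ := rfl

theorem tau_K : ∀ g ∈ kerT P T, ∀ x, tau h g x = x := by
  intro g hg x
  apply Subtype.ext
  rw [tau_val]
  have h1 : (g : G) ∈ 𝐂[P] := Subgroup.mem_subgroupOf.1 hg
  rw [← (Subgroup.mem_centralizer_iff.1 h1) (x : G) x.2]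
  group

theorem tau_free : ∀ g x, x ≠ 1 → tau h g x = x → g ∈ kerT P T := by
  intro g x hx hg
  apply Subgroup.mem_subgroupOf.2
  refine h.hfree _ g.2 x x.2 (fun h1 => hx (Subtype.ext h1)) ?_
  rw [← tau_val h, hg]

theorem card_kerT : Fintype.card (kerT P T) * (𝐂[P]).relIndex T = Fintype.card T := by
  have h1 := Subgroup.card_mul_index (kerT P T)
  rw [Nat.card_eq_fintype_card, Nat.card_eq_fintype_card] at h1
  exact h1

include h in
theorem lamO_val {u : P} (hu : u ≠ 1) (v : P) :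
    lamO T (u : G) (v : G) = if ∃ g, tau h g u = v then (Fintype.card (kerT P T) : ℂ) else 0 := by
  classical
  have h1 := orbit_count (tau h) (kerT P T) (tau_K h) (tau_free h) hu v
  have h2 : lamO T (u : G) (v : G) = ((Finset.univ.filter (fun g : T => tau h g u = v)).card : ℂ) := by
    unfold lamO
    rw [Finset.card_filter]
    push_cast
    refine Finset.sum_congr rfl fun t _ => ?_
    have h3 : (t : G) * (u : G) * (t : G)⁻¹ = (v : G) ↔ tau h t u = v := by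
      rw [Subtype.ext_iff, tau_val]
    simp only [h3]
  have h1' : ((Finset.univ.filter (fun g : T => tau h g u = v)).card : ℂ) =
      ((if ∃ g, tau h g u = v then Fintype.card (kerT P T) else 0 : ℕ) : ℂ) := by
    convert congrArg (Nat.cast : ℕ → ℂ) h1
  rw [h2, h1']
  split_ifs <;> simp

end Tau

/-- The functions on `P` attached to the characters. -/
structure DData (h : FS p M B P c T) (χ₀ : IrrCharacter G) (D : IrrCharacter G → P → ℂ) : Prop where
  star : ∀ (χ χ' : IrrCharacter G) (u : P), u ≠ 1 → D χ u * conj (D χ' u) =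
    (((𝐂[P]).relIndex T : ℕ) : ℂ) * (Nat.card P : ℂ) * cc h.hM h.hmax.1.1 (χ : G → ℂ) (χ' : G → ℂ) u
  inv : ∀ (χ : IrrCharacter G) (g : T) (v : P), v ≠ 1 → D χ (tau h g v) = D χ v
  ne0 : ∀ u : P, u ≠ 1 → D χ₀ u ≠ 0

section Gram

variable {h : FS p M B P c T} {χ₀ : IrrCharacter G} {D : IrrCharacter G → P → ℂ}

theorem DData.gram [Fintype B] (dd : DData h χ₀ D) (hχ₀ : χ₀ ∈ B) (u v : P) (hu : u ≠ 1) (hv : v ≠ 1) :
    ∑ χ : B, D (χ : IrrCharacter G) u * conj (D (χ : IrrCharacter G) v) =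
      if ∃ g, tau h g u = v then (Nat.card P : ℂ) else 0 := by
  classical
  set E : ℂ := (((𝐂[P]).relIndex T : ℕ) : ℂ) * (Nat.card P : ℂ) with hE
  have hP0 : (Nat.card P : ℂ) ≠ 0 := by exact_mod_cast Nat.card_pos.ne'
  have he0 : (((𝐂[P]).relIndex T : ℕ) : ℂ) ≠ 0 := by
    have : (𝐂[P]).relIndex T ≠ 0 := Subgroup.index_ne_zero_of_finite
    exact_mod_cast this
  have hE0 : E ≠ 0 := mul_ne_zero he0 hP0
  have hK0 : (Fintype.card (kerT P T) : ℂ) ≠ 0 := by exact_mod_cast Fintype.card_ne_zero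
  have hcc : ∀ (ξ : IrrCharacter G) (w : P), w ≠ 1 →
      cc h.hM h.hmax.1.1 (χ₀ : G → ℂ) (ξ : G → ℂ) w = D χ₀ w * conj (D ξ w) / E := by
    intro ξ w hw
    rw [eq_div_iff hE0, dd.star χ₀ ξ w hw, hE]
    ring
  have hraw := gram_raw h hχ₀ v u
  set S := ∑ χ : B, D (χ : IrrCharacter G) u * conj (D (χ : IrrCharacter G) v) with hS
  have hsum : ∑ ξ : B, cc h.hM h.hmax.1.1 (χ₀ : G → ℂ) ((ξ : IrrCharacter G) : G → ℂ) v *
        conj (cc h.hM h.hmax.1.1 (χ₀ : G → ℂ) ((ξ : IrrCharacter G) : G → ℂ) u) =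
      D χ₀ v * conj (D χ₀ u) / E ^ 2 * S := by
    rw [hS, Finset.mul_sum]
    refine Finset.sum_congr rfl fun ξ _ => ?_
    rw [hcc _ v hv, hcc _ u hu]
    have hEc : conj E = E := by
      rw [hE, map_mul, Complex.conj_natCast, Complex.conj_natCast]
    rw [map_div₀, map_mul, hEc, Complex.conj_conj]
    field_simp
  rw [hsum, hcc _ v hv, lamO_val (h := h) hu v] at hraw
  have hTc : (Fintype.card T : ℂ) = Fintype.card (kerT P T) * ((𝐂[P]).relIndex T : ℕ) := by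
    exact_mod_cast (card_kerT (P := P) (T := T)).symm
  have hD₀v := dd.ne0 v hv
  have hD₀u := dd.ne0 u hu
  have hcu : conj (D χ₀ u) ≠ 0 := by simpa using hD₀u
  split_ifs with hex
  · rw [if_pos hex] at hraw
    obtain ⟨g, hg⟩ := hex
    have hDv : D χ₀ v = D χ₀ u := by
      rw [← hg]
      exact dd.inv χ₀ g u hu
    rw [hDv] at hraw
    rw [hTc] at hraw
    field_simp at hraw
    rw [hE] at hraw
    field_simp at hraw
    linear_combination hraw
  · rw [if_neg hex, zero_mul] at hraw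
    rw [hTc] at hraw
    have h1 : (Fintype.card (kerT P T) : ℂ) * ((𝐂[P]).relIndex T : ℕ) * (D χ₀ v * conj (D χ₀ u) / E ^ 2) ≠ 0 := by
      refine mul_ne_zero (mul_ne_zero hK0 he0) (div_ne_zero (mul_ne_zero hD₀v hcu) (pow_ne_zero _ hE0))
    have h2 : (Fintype.card (kerT P T) : ℂ) * ((𝐂[P]).relIndex T : ℕ) * (D χ₀ v * conj (D χ₀ u) / E ^ 2) * S = 0 := by
      rw [mul_assoc]
      exact hraw
    exact (mul_eq_zero.1 h2).resolve_left h1

theorem inner_reg_ne (hM : IsPModular p M) (hB : IsPBlock M B) {χ₀ : IrrCharacter G} (hχ₀ : χ₀ ∈ B)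
    (h0 : (charDegree (χ₀ : G → ℂ)).factorization p = Cfsg.Agent.Lib.BlockQ.minExp p B)
    {ξ : IrrCharacter G} (hξ : ξ ∈ B) : classInner (pRegularPart p (χ₀ : G → ℂ)) (ξ : G → ℂ) ≠ 0 := by
  rw [Cfsg.Agent.Lib.BlockQ.classInner_eq_omega]
  have hω := Cfsg.Agent.Lib.BlockHeightQ.omega_regInv_unit_of_height_zero hM hB hχ₀ h0
  have hc := Cfsg.Agent.Lib.BlockQ.omega_regInv_mem_Zc (M := M) (p := p)
    (IsIrrCharacter.isCharacter χ₀.2)
  have hsame := Cfsg.Agent.Lib.BlockHeightQ.sameBlock_of_mem hB hχ₀ hξ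
  have h1 := memLocalIdeal_sub_of_mem_Zc hc hsame
  have h2 : omega (ξ : G → ℂ) (Cfsg.Agent.Lib.BlockQ.regInv p (χ₀ : G → ℂ)) ≠ 0 := by
    intro h3
    rw [h3, sub_zero] at h1
    exact hω h1
  have h3 : (ξ : G → ℂ) 1 ≠ 0 := isIrr_one_ne_zero ξ.2
  have h4 : (Nat.card G : ℂ) ≠ 0 := by exact_mod_cast Nat.card_pos.ne'
  exact div_ne_zero (mul_ne_zero h2 h3) h4

theorem DData.rows (dd : DData h χ₀ D) (hχ₀ : χ₀ ∈ B)
    (h0 : (charDegree (χ₀ : G → ℂ)).factorization p = Cfsg.Agent.Lib.BlockQ.minExp p B) (hP1 : P ≠ ⊥)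
    {χ : IrrCharacter G} (hχ : χ ∈ B) : ∃ v : P, v ≠ 1 ∧ D χ v ≠ 0 := by
  classical
  by_contra hall
  push Not at hall
  have hP0 : (Nat.card P : ℂ) ≠ 0 := by exact_mod_cast Nat.card_pos.ne'
  have he0 : (((𝐂[P]).relIndex T : ℕ) : ℂ) ≠ 0 := by
    have : (𝐂[P]).relIndex T ≠ 0 := Subgroup.index_ne_zero_of_finite
    exact_mod_cast this
  have h1 : ∀ w : P, w ≠ 1 → cc h.hM h.hmax.1.1 (χ₀ : G → ℂ) (χ : G → ℂ) w = 0 := by
    intro w hw
    have h2 := dd.star χ₀ χ w hw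
    rw [hall w hw, map_zero, mul_zero] at h2
    have h3 := mul_ne_zero he0 hP0
    exact (mul_eq_zero.1 h2.symm).resolve_left h3
  have h2 := sum_cc h hχ₀ hχ
  rw [Finset.sum_eq_single (1 : P) (fun b _ hb => h1 b hb) (by simp),
    cc_one h.hM h.hmax hχ₀ hχ] at h2
  have h3 := inner_reg_ne h.hM h.hmax.1.2.1 hχ₀ h0 hχ
  rw [← h2] at h3
  have h4 : χ₀ = χ := by
    by_contra hne
    exact h3 (classInner_irr_ne χ₀.2 χ.2 (fun h5 => hne (Subtype.ext h5)))
  obtain ⟨⟨w, hw⟩, hw1⟩ := (Subgroup.ne_bot_iff_exists_ne_one).1 hP1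
  have hw' : (⟨w, hw⟩ : P) ≠ 1 := hw1
  exact dd.ne0 _ hw' (by rw [h4]; exact hall _ hw')

theorem rank_sum (h : FS p M B P c T) [Fintype B] :
    (blockRank p B : ℂ) = ∑ χ : B, cc h.hM h.hmax.1.1 ((χ : IrrCharacter G) : G → ℂ) ((χ : IrrCharacter G) : G → ℂ) 1 := by
  classical
  have hG : (Nat.card G : ℂ) ≠ 0 := by exact_mod_cast Nat.card_pos.ne'
  have h1 := card_mul_blockRank h.hM h.hmax.1.2.1
  rw [Finset.sum_comm] at h1
  have h2 : ∑ χ : B, cc h.hM h.hmax.1.1 ((χ : IrrCharacter G) : G → ℂ) ((χ : IrrCharacter G) : G → ℂ) 1 =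
      ∑ χ : B, (fun ξ : IrrCharacter G => indB B ξ * classInner (pRegularPart p (ξ : G → ℂ)) (ξ : G → ℂ)) χ := by
    refine Finset.sum_congr rfl fun χ _ => ?_
    show _ = indB B (χ : IrrCharacter G) * classInner (pRegularPart p ((χ : IrrCharacter G) : G → ℂ)) ((χ : IrrCharacter G) : G → ℂ)
    rw [cc_one h.hM h.hmax χ.2 χ.2, indB_of_mem χ.2, one_mul]
  rw [h2, sum_subtype_B (fun ξ : IrrCharacter G => indB B ξ * classInner (pRegularPart p (ξ : G → ℂ)) (ξ : G → ℂ))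
    (fun ξ hξ => by rw [indB_of_not_mem hξ, zero_mul])]
  apply mul_left_cancel₀ hG
  rw [h1, Finset.mul_sum]
  refine Finset.sum_congr rfl fun ξ _ => ?_
  unfold classInner
  rw [← mul_assoc, mul_comm (Nat.card G : ℂ) (indB B ξ), mul_assoc, mul_inv_cancel_left₀ hG, Finset.mul_sum]

theorem DData.count [Fintype B] (dd : DData h χ₀ D) (hχ₀ : χ₀ ∈ B) :
    (Fintype.card B : ℂ) = (blockRank p B : ℂ) + ((Nat.card P : ℂ) - 1) / (((𝐂[P]).relIndex T : ℕ) : ℂ) := by
  classical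
  have hP0 : (Nat.card P : ℂ) ≠ 0 := by exact_mod_cast Nat.card_pos.ne'
  have he0 : (((𝐂[P]).relIndex T : ℕ) : ℂ) ≠ 0 := by
    have : (𝐂[P]).relIndex T ≠ 0 := Subgroup.index_ne_zero_of_finite
    exact_mod_cast this
  have h1 : (Fintype.card B : ℂ) = ∑ χ : B, ∑ w : P, cc h.hM h.hmax.1.1 ((χ : IrrCharacter G) : G → ℂ) ((χ : IrrCharacter G) : G → ℂ) w := by
    have h2 : ∀ χ : B, ∑ w : P, cc h.hM h.hmax.1.1 ((χ : IrrCharacter G) : G → ℂ) ((χ : IrrCharacter G) : G → ℂ) w = 1 := by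
      intro χ
      rw [← sum_cc h χ.2 χ.2, classInner_irr_self χ.1.2]
    simp only [h2, Finset.sum_const, Finset.card_univ, nsmul_eq_mul, mul_one]
  rw [h1, Finset.sum_comm, ← Finset.add_sum_erase _ _ (Finset.mem_univ (1 : P)), ← rank_sum h]
  congr 1
  have h3 : ∀ w ∈ Finset.univ.erase (1 : P), ∑ χ : B, cc h.hM h.hmax.1.1 ((χ : IrrCharacter G) : G → ℂ) ((χ : IrrCharacter G) : G → ℂ) w =
      (((𝐂[P]).relIndex T : ℕ) : ℂ)⁻¹ := by
    intro w hw
    have hw1 := Finset.ne_of_mem_erase hw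
    have h4 := dd.gram hχ₀ w w hw1 hw1
    rw [if_pos ⟨1, by simp⟩] at h4
    have h5 : ∀ χ : B, cc h.hM h.hmax.1.1 ((χ : IrrCharacter G) : G → ℂ) ((χ : IrrCharacter G) : G → ℂ) w =
        (D (χ : IrrCharacter G) w * conj (D (χ : IrrCharacter G) w)) / ((((𝐂[P]).relIndex T : ℕ) : ℂ) * (Nat.card P : ℂ)) := by
      intro χ
      rw [dd.star _ _ w hw1]
      field_simp
    simp only [h5]
    rw [← Finset.sum_div, h4]
    field_simp
  rw [Finset.sum_congr rfl h3, Finset.sum_const, Finset.card_erase_of_mem (Finset.mem_univ _), Finset.card_univ,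
    Fintype.card_eq_nat_card, nsmul_eq_mul, Nat.cast_sub Nat.card_pos, Nat.cast_one]
  field_simp

end Gram

/-- **The integer matrix and the count.** -/
theorem final_counts [Fintype B] (h : FS p M B P c T) (hP1 : P ≠ ⊥) :
    ∃ (R : Finset (IrrCharacter P)) (x : R → B → ℤ),
      R.card * (𝐂[P]).relIndex T = Nat.card P - 1 ∧
      (∀ i j, ∑ χ, x i χ * x j χ = (if i = j then 1 else 0) + (((𝐂[P]).relIndex T : ℕ) : ℤ)) ∧
      (∀ χ, ∃ i, x i χ ≠ 0) ∧
      Fintype.card B = blockRank p B + R.card := by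
  classical
  have hM := h.hM
  have hB := h.hmax.1.2.1
  obtain ⟨χ₀, hχ₀, h0⟩ := Cfsg.Agent.Lib.BlockQ.exists_minExp (p := p) hB
  have hχ₀c : IsCharacter G (χ₀ : G → ℂ) := IsIrrCharacter.isCharacter χ₀.2
  obtain ⟨i, hS⟩ := exists_source hM hB h.hPD c h.hmax hχ₀ h0
  obtain ⟨d⟩ := exists_LD h hS
  obtain ⟨Ξ, hΞ, hΞn⟩ := d.exists_Xi hχ₀c hS
  set e := (𝐂[P]).relIndex T with he
  have he0 : 0 < e := Nat.pos_of_ne_zero Subgroup.index_ne_zero_of_finite
  set n : P → ℕ := fun v => d.nn (Subgroup.zpowers (v : G)) with hn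
  have hne : ∃ x : P, x ≠ 1 := by
    obtain ⟨w, hw⟩ := (Subgroup.ne_bot_iff_exists_ne_one).1 hP1
    exact ⟨w, hw⟩
  have hnT : ∀ g v, v ≠ 1 → n (tau h g v) = n v := fun g v hv => d.nn_T hP1 hχ₀c hS g.2 hv
  have hnp : ∀ v, v ≠ 1 → ¬ p ∣ n v := fun v hv =>
    d.nn_not_dvd hχ₀c hS (zp_le_of_mem v) (LD.zp_ne_bot hv)
  obtain ⟨W, Y, hW, hY, hYz, hq, hqT⟩ := exists_WY (tau h) (kerT P T) (tau_K h) (tau_free h) hM h.hPp hne
    (card_kerT (P := P) (T := T)) he0 n hnT hnp hΞ hΞn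
  set D : IrrCharacter G → P → ℂ := fun χ v => FF (P := P) i (χ : G → ℂ) v * (W v / Y v) with hD
  have hqc : ∀ u : P, u ≠ 1 → (W u / Y u) * conj (W u / Y u) * (n u : ℂ) ^ 2 = 1 := by
    intro u hu
    have h1 := hq u hu
    have h2 : conj (W u / Y u) * (n u : ℂ) = conj ((W u / Y u) * (n u : ℂ)) := by
      rw [map_mul, Complex.conj_natCast]
    have h3 : (W u / Y u) * conj (W u / Y u) * (n u : ℂ) ^ 2 =
        ((W u / Y u) * (n u : ℂ)) * (conj (W u / Y u) * (n u : ℂ)) := by ring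
    rw [h3, h2]
    rcases h1 with h1 | h1 <;> rw [h1] <;> simp
  have dd : DData h χ₀ D := by
    refine ⟨fun χ χ' u hu => ?_, fun χ g v hv => ?_, fun u hu => ?_⟩
    · have hc := isClassFunction_of_isCharacter (IsIrrCharacter.isCharacter χ.2)
      have hc' := isClassFunction_of_isCharacter (IsIrrCharacter.isCharacter χ'.2)
      have h1 := d.FF_mul_conj hS hc hc' hu
      show FF (P := P) i (χ : G → ℂ) u * (W u / Y u) * conj (FF (P := P) i (χ' : G → ℂ) u * (W u / Y u)) = _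
      rw [map_mul]
      calc FF (P := P) i (χ : G → ℂ) u * (W u / Y u) * (conj (FF (P := P) i (χ' : G → ℂ) u) * conj (W u / Y u))
          = (FF (P := P) i (χ : G → ℂ) u * conj (FF (P := P) i (χ' : G → ℂ) u)) * ((W u / Y u) * conj (W u / Y u)) := by ring
        _ = _ := by
          rw [h1]
          have h2 := hqc u hu
          calc _ = (((𝐂[P]).relIndex T : ℕ) : ℂ) * (Nat.card P : ℂ) * cc h.hM h.hmax.1.1 (χ : G → ℂ) (χ' : G → ℂ) u *
                ((W u / Y u) * conj (W u / Y u) * (n u : ℂ) ^ 2) := by ring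
            _ = _ := by rw [h2, mul_one]
    · show FF (P := P) i (χ : G → ℂ) (tau h g v) * (W (tau h g v) / Y (tau h g v)) = FF (P := P) i (χ : G → ℂ) v * (W v / Y v)
      rw [hqT g v hv]
      congr 1
      exact FF_T h hP1 d hχ₀c hS g.2 (isClassFunction_of_isCharacter (IsIrrCharacter.isCharacter χ.2)) v
    · show FF (P := P) i (χ₀ : G → ℂ) u * (W u / Y u) ≠ 0
      refine mul_ne_zero (fun h0 => d.FF_unit hχ₀c hS u (by rw [h0]; exact memLocalIdeal_zero)) ?_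
      intro h1
      rcases hq u hu with h2 | h2 <;> rw [h1] at h2 <;> simp at h2
  obtain ⟨k, hk⟩ := IsPGroup.iff_card.1 h.hPp
  have hpcast : ∀ v, ∃ z : ℤ, v ≠ 1 → Y v = z ∧ ¬ (p : ℤ) ∣ z := by
    intro v
    by_cases hv : v = 1
    · exact ⟨0, fun h1 => absurd hv h1⟩
    · obtain ⟨z, hz⟩ := hYz v hv
      exact ⟨z, fun _ => hz⟩
  choose y hy using hpcast
  have hc : ∀ a b : P, a * b = b * a := fun a b => Subtype.ext (h.hab _ a.2 _ b.2)
  have hint : ∀ (χ : B) (ξ : P → ℂ), IsGeneralizedCharacter P ξ → ξ 1 = 0 →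
      ∃ a : ℤ, (Nat.card P : ℂ)⁻¹ * ∑ v ∈ Finset.univ.erase (1 : P), ξ v * D (χ : IrrCharacter G) v = a := by
    intro χ ξ hξ hξ1
    have hcχ := IsIrrCharacter.isCharacter (χ : IrrCharacter G).2
    have hint' : ∀ v : P, v ≠ 1 → IsIntegral ℤ (FF (P := P) i ((χ : IrrCharacter G) : G → ℂ) v * W v / Y v) := by
      intro v hv
      have h1 := LD.zp_ne_bot hv
      rw [d.FF_value hS (isClassFunction_of_isCharacter hcχ) hv h1]
      have h2 := cF_shift_integral (v : G) (d.f _ (zp_le_of_mem v) h1).1 hcχ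
      have h3 : d.nu (Subgroup.zpowers (v : G)) * (W v / Y v) = 1 ∨ d.nu (Subgroup.zpowers (v : G)) * (W v / Y v) = -1 := by
        have h4 := hq v hv
        rcases d.nu_eq_nn (zp_le_of_mem v) h1 with h5 | h5 <;> rcases h4 with h4 | h4 <;> rw [h5]
        · left
          rw [mul_comm]
          exact h4
        · right
          rw [mul_comm]
          exact h4
        · right
          rw [mul_comm, mul_neg, show (W v / Y v) * (d.nn (Subgroup.zpowers (v : G)) : ℂ) = 1 from h4]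
        · left
          rw [mul_comm, mul_neg, show (W v / Y v) * (d.nn (Subgroup.zpowers (v : G)) : ℂ) = -1 from h4]
          simp
      have h6 : cF (d.f _ (zp_le_of_mem v) h1).1 (shiftF (v : G) ((χ : IrrCharacter G) : G → ℂ)) * d.nu (Subgroup.zpowers (v : G)) * W v / Y v =
          cF (d.f _ (zp_le_of_mem v) h1).1 (shiftF (v : G) ((χ : IrrCharacter G) : G → ℂ)) * (d.nu (Subgroup.zpowers (v : G)) * (W v / Y v)) := by
        ring
      rw [h6]
      rcases h3 with h3 | h3 <;> rw [h3]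
      · simpa using h2
      · simpa using h2.neg
    obtain ⟨a, ha⟩ := fourier_int hp.out hk hξ (FF_isGen hS hcχ) hW hY hξ1 y (fun v hv => (hy v hv).1)
      (fun v hv => (hy v hv).2) hint'
    refine ⟨a, ?_⟩
    rw [← ha]
    congr 1
    refine Finset.sum_congr (by congr!) fun v _ => ?_
    show ξ v * (FF (P := P) i ((χ : IrrCharacter G) : G → ℂ) v * (W v / Y v)) = _
    rw [mul_div_assoc]
  obtain ⟨R, x, hR, hGram, hrow⟩ := abs_count (tau h) hc (kerT P T) (tau_K h) (tau_free h) (ι := B) e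
    (card_kerT (P := P) (T := T)) he0 (fun χ => D (χ : IrrCharacter G))
    (fun χ g v hv => dd.inv _ g v hv) (fun u v hu hv => by convert dd.gram hχ₀ u v hu hv)
    (fun χ ξ hξ hξ1 => by
      obtain ⟨a, ha⟩ := hint χ ξ hξ hξ1
      exact ⟨a, by convert ha⟩)
    (fun χ => dd.rows hχ₀ h0 hP1 χ.2)
  refine ⟨R, x, hR, hGram, hrow, ?_⟩
  have hcount := dd.count hχ₀
  have hec : (e : ℂ) ≠ 0 := by exact_mod_cast he0.ne'
  have h1 : ((Nat.card P : ℂ) - 1) / (e : ℂ) = R.card := by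
    rw [div_eq_iff hec]
    have h2 : ((R.card * e : ℕ) : ℂ) = ((Nat.card P - 1 : ℕ) : ℂ) := by rw [hR]
    rw [Nat.cast_sub Nat.card_pos] at h2
    push_cast at h2
    exact h2.symm
  rw [h1] at hcount
  exact_mod_cast hcount

end Cfsg.Agent.Lib.BFData
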