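import Mathlib

/-!
# Integer vectors with the Gram matrix `1 + e`, `e`

A counting argument for `k ≤ s + e`, and the case of small `e`.
-/

set_option autoImplicit false
set_option linter.unusedSectionVars false
set_option linter.unusedVariables false

namespace Cfsg.Agent.Lib.BFGram

open Finset

variable {ι I : Type*} [Fintype ι] [Fintype I]

/-- The bound for a nonzero integer row. -/
theorem row_bound (r : I → ℤ) (hr : ∃ i, r i ≠ 0) :
    (Fintype.card I : ℤ) ≤ ((Fintype.card I : ℤ) + 1) * ∑ i, r i ^ 2 - (∑ i, r i) ^ 2 := by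
  obtain ⟨i₀, hi₀⟩ := hr
  set s : ℤ := (Fintype.card I : ℤ) with hs
  set N : ℤ := ∑ i, r i ^ 2 with hNd
  set t : ℤ := ∑ i, r i with ht
  have hs1 : 1 ≤ s := by
    have : 0 < Fintype.card I := Fintype.card_pos_iff.2 ⟨i₀⟩
    omega
  have hN : 1 ≤ N := by
    have h1 : r i₀ ^ 2 ≤ N := Finset.single_le_sum (f := fun i => r i ^ 2) (fun i _ => sq_nonneg _) (Finset.mem_univ i₀)
    have h2 : 1 ≤ r i₀ ^ 2 := by
      have := sq_pos_of_ne_zero hi₀
      omega
    omega
  have hCS : t ^ 2 ≤ s * N := by
    have := sq_sum_le_card_mul_sum_sq (s := Finset.univ) (f := r)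
    simpa [hs, Finset.card_univ] using this
  have habs : |t| ≤ N := by
    refine (Finset.abs_sum_le_sum_abs _ _).trans (Finset.sum_le_sum fun i _ => ?_)
    have h3 : |r i| ≤ |r i| ^ 2 := by
      rcases eq_or_ne (r i) 0 with h | h
      · simp [h]
      · have h4 : 1 ≤ |r i| := Int.one_le_abs h
        nlinarith
    rwa [sq_abs] at h3
  have hsq : t ^ 2 ≤ N ^ 2 := by
    rw [← sq_abs t]
    exact pow_le_pow_left₀ (abs_nonneg t) habs 2
  by_cases hNs : N ≤ s
  · nlinarith [mul_nonneg (sub_nonneg.2 hN) (sub_nonneg.2 hNs)]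
  · push Not at hNs
    nlinarith

/-- **The count.** -/
theorem gram_count [DecidableEq I] (x : I → ι → ℤ) (e : ℕ)
    (hG : ∀ i j, ∑ χ, x i χ * x j χ = (if i = j then 1 else 0) + (e : ℤ))
    (hne : ∀ χ, ∃ i, x i χ ≠ 0) (hs : 0 < Fintype.card I) : Fintype.card ι ≤ Fintype.card I + e := by
  set s : ℤ := (Fintype.card I : ℤ) with hsd
  have h1 : ∑ _χ : ι, s ≤ ∑ χ, ((s + 1) * ∑ i, x i χ ^ 2 - (∑ i, x i χ) ^ 2) :=
    Finset.sum_le_sum fun χ _ => row_bound (fun i => x i χ) (hne χ)
  have h2 : ∑ χ, ((s + 1) * ∑ i, x i χ ^ 2 - (∑ i, x i χ) ^ 2) = s * (s + e) := by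
    rw [Finset.sum_sub_distrib, ← Finset.mul_sum, Finset.sum_comm]
    have h3 : ∀ i, ∑ χ, x i χ ^ 2 = 1 + (e : ℤ) := by
      intro i
      have := hG i i
      simp only [if_true] at this
      rw [← this]
      refine Finset.sum_congr rfl fun χ _ => ?_
      ring
    have h4 : ∑ χ, (∑ i, x i χ) ^ 2 = ∑ i, ∑ j, ∑ χ, x i χ * x j χ := by
      simp_rw [sq, Finset.sum_mul_sum]
      rw [Finset.sum_comm]
      refine Finset.sum_congr rfl fun i _ => ?_
      rw [Finset.sum_comm]
    rw [h4]
    simp_rw [h3, hG]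
    have h5 : ∀ i : I, ∑ j : I, ((if i = j then (1 : ℤ) else 0) + (e : ℤ)) = 1 + s * e := by
      intro i
      rw [Finset.sum_add_distrib, Finset.sum_ite_eq]
      simp [hsd, Finset.card_univ]
    simp_rw [h5]
    simp only [Finset.sum_const, Finset.card_univ, nsmul_eq_mul]
    rw [← hsd]
    ring
  rw [h2] at h1
  simp only [Finset.sum_const, Finset.card_univ, nsmul_eq_mul] at h1
  have hs0 : 0 < s := by
    rw [hsd]
    exact_mod_cast hs
  have h3 : ((Fintype.card ι : ℤ)) ≤ s + e := by
    by_contra h
    push Not at h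
    nlinarith
  rw [hsd] at h3
  exact_mod_cast h3

/-- The structure of a family of sets of size `e + 1` meeting pairwise in `e` elements. -/
theorem family_core {α : Type*} [DecidableEq α] [DecidableEq I] (S : I → Finset α) (e : ℕ)
    (hc : ∀ i, (S i).card = e + 1) (hi : ∀ i j, i ≠ j → (S i ∩ S j).card = e) (i₀ i₁ : I) (h01 : i₀ ≠ i₁) :
    (Finset.univ.biUnion S).card = e + Fintype.card I ∨
      (3 ≤ Fintype.card I ∧ (Finset.univ.biUnion S).card ≤ e + 2) := by
  set A := S i₀ ∩ S i₁ with hA
  have hAc : A.card = e := hi _ _ h01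
  set W := S i₀ ∪ S i₁ with hW
  have hWc : W.card = e + 2 := by
    have := Finset.card_union_add_card_inter (S i₀) (S i₁)
    rw [hc, hc, ← hA, hAc] at this
    rw [hW]
    omega
  -- the key step
  have key : ∀ j z, z ∈ S j → z ∉ W → (S j).erase z = A := by
    intro j z hz hzW
    have hz0 : z ∉ S i₀ := fun h => hzW (Finset.mem_union_left _ h)
    have hz1 : z ∉ S i₁ := fun h => hzW (Finset.mem_union_right _ h)
    have hj0 : j ≠ i₀ := by
      rintro rfl
      exact hz0 hz
    have hj1 : j ≠ i₁ := by
      rintro rfl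
      exact hz1 hz
    have herase : ((S j).erase z).card = e := by
      rw [Finset.card_erase_of_mem hz, hc]
      simp
    have h0 : S j ∩ S i₀ = (S j).erase z := by
      apply Finset.eq_of_subset_of_card_le
      · intro y hy
        obtain ⟨h1, h2⟩ := Finset.mem_inter.1 hy
        refine Finset.mem_erase.2 ⟨?_, h1⟩
        rintro rfl
        exact hz0 h2
      · rw [hi _ _ hj0, herase]
    have h1 : S j ∩ S i₁ = (S j).erase z := by
      apply Finset.eq_of_subset_of_card_le
      · intro y hy
        obtain ⟨h1, h2⟩ := Finset.mem_inter.1 hy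
        refine Finset.mem_erase.2 ⟨?_, h1⟩
        rintro rfl
        exact hz1 h2
      · rw [hi _ _ hj1, herase]
    apply Finset.eq_of_subset_of_card_le
    · intro y hy
      have h2 : y ∈ S j ∩ S i₀ := by rw [h0]; exact hy
      have h3 : y ∈ S j ∩ S i₁ := by rw [h1]; exact hy
      exact Finset.mem_inter.2 ⟨(Finset.mem_inter.1 h2).2, (Finset.mem_inter.1 h3).2⟩
    · rw [herase, hAc]
  by_cases hall : ∀ j, A ⊆ S j
  · left
    -- the sunflower
    have hsd : ∀ j, (S j \ A).card = 1 := by
      intro j
      rw [Finset.card_sdiff_of_subset (hall j), hc, hAc]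
      simp
    choose a ha using fun j => Finset.card_eq_one.1 (hsd j)
    have haS : ∀ j, S j = insert (a j) A := by
      intro j
      ext y
      constructor
      · intro hy
        by_cases hyA : y ∈ A
        · exact Finset.mem_insert_of_mem hyA
        · have : y ∈ S j \ A := Finset.mem_sdiff.2 ⟨hy, hyA⟩
          rw [ha j] at this
          rw [Finset.mem_singleton.1 this]
          exact Finset.mem_insert_self _ _
      · intro hy
        rcases Finset.mem_insert.1 hy with rfl | hy
        · have : a j ∈ S j \ A := by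
            rw [ha j]
            exact Finset.mem_singleton_self _
          exact (Finset.mem_sdiff.1 this).1
        · exact hall j hy
    have haA : ∀ j, a j ∉ A := by
      intro j
      have : a j ∈ S j \ A := by
        rw [ha j]
        exact Finset.mem_singleton_self _
      exact (Finset.mem_sdiff.1 this).2
    have hinj : Function.Injective a := by
      intro j k hjk
      by_contra hne
      have h1 := hi j k hne
      rw [haS j, haS k, hjk, Finset.inter_self, Finset.card_insert_of_notMem (haA k), hAc] at h1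
      omega
    have hU : Finset.univ.biUnion S = A ∪ Finset.univ.image a := by
      ext y
      simp only [Finset.mem_biUnion, Finset.mem_univ, true_and, Finset.mem_union, Finset.mem_image]
      constructor
      · rintro ⟨j, hj⟩
        rw [haS j] at hj
        rcases Finset.mem_insert.1 hj with rfl | hj
        · exact Or.inr ⟨j, rfl⟩
        · exact Or.inl hj
      · rintro (hy | ⟨j, rfl⟩)
        · exact ⟨i₀, hall i₀ hy⟩
        · refine ⟨j, ?_⟩
          rw [haS j]
          exact Finset.mem_insert_self _ _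
    rw [hU, Finset.card_union_of_disjoint, hAc, Finset.card_image_of_injective _ hinj, Finset.card_univ]
    rw [Finset.disjoint_left]
    intro y hy hy2
    obtain ⟨j, -, rfl⟩ := Finset.mem_image.1 hy2
    exact haA j hy
  · right
    push Not at hall
    obtain ⟨i₂, hi₂⟩ := hall
    have h20 : i₂ ≠ i₀ := by
      rintro rfl
      exact hi₂ Finset.inter_subset_left
    have h21 : i₂ ≠ i₁ := by
      rintro rfl
      exact hi₂ Finset.inter_subset_right
    have h2W : S i₂ ⊆ W := by
      intro z hz
      by_contra hzW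
      apply hi₂
      rw [← key i₂ z hz hzW]
      exact fun y hy => (Finset.mem_erase.1 hy).2
    constructor
    · have h3 : ({i₀, i₁, i₂} : Finset I).card = 3 := by
        rw [Finset.card_insert_of_notMem, Finset.card_insert_of_notMem, Finset.card_singleton]
        · simpa using h21.symm
        · simp [h01, h20.symm]
      calc 3 = ({i₀, i₁, i₂} : Finset I).card := h3.symm
        _ ≤ _ := Finset.card_le_univ _
    · rw [← hWc]
      apply Finset.card_le_card
      intro z hz
      obtain ⟨j, -, hzj⟩ := Finset.mem_biUnion.1 hz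
      by_contra hzW
      have hj2 : j ≠ i₂ := by
        rintro rfl
        exact hzW (h2W hzj)
      have h5 := key j z hzj hzW
      have h6 : S j ∩ S i₂ = A ∩ S i₂ := by
        ext y
        simp only [Finset.mem_inter]
        constructor
        · rintro ⟨h7, h8⟩
          refine ⟨?_, h8⟩
          rw [← h5]
          refine Finset.mem_erase.2 ⟨?_, h7⟩
          rintro rfl
          exact hzW (h2W h8)
        · rintro ⟨h7, h8⟩
          rw [← h5] at h7
          exact ⟨(Finset.mem_erase.1 h7).2, h8⟩
      have h7 := hi j i₂ hj2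
      rw [h6] at h7
      apply hi₂
      have h8 : A ∩ S i₂ = A := Finset.eq_of_subset_of_card_le Finset.inter_subset_left (by rw [h7, hAc])
      rw [← h8]
      exact Finset.inter_subset_right

/-- **The case of small `e`.** -/
theorem gram_small [DecidableEq I] [DecidableEq ι] (x : I → ι → ℤ) (e : ℕ) (he2 : 2 ≤ e) (he3 : e ≤ 3)
    (hG : ∀ i j, ∑ χ, x i χ * x j χ = (if i = j then 1 else 0) + (e : ℤ))
    (hne : ∀ χ, ∃ i, x i χ ≠ 0) (hs : 0 < Fintype.card I) (hk : Fintype.card I + 1 ≤ Fintype.card ι) :
    Fintype.card ι = Fintype.card I + e ∨ (3 ≤ Fintype.card I ∧ Fintype.card ι ≤ e + 2) := by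
  have hnorm : ∀ i, ∑ χ, x i χ ^ 2 = 1 + (e : ℤ) := by
    intro i
    have := hG i i
    simp only [if_true] at this
    rw [← this]
    refine Finset.sum_congr rfl fun χ _ => ?_
    ring
  have hk2 : 2 ≤ Fintype.card ι := by omega
  -- the entries
  have hent : ∀ i χ, x i χ = 0 ∨ x i χ = 1 ∨ x i χ = -1 := by
    intro i χ
    by_contra hcon
    push Not at hcon
    obtain ⟨h1, h2, h3⟩ := hcon
    have h4 : 4 ≤ x i χ ^ 2 := by
      have h5 : 2 ≤ |x i χ| := by
        have : x i χ ≠ 0 := h1
        rcases abs_cases (x i χ) with ⟨h6, h7⟩ | ⟨h6, h7⟩ <;> omega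
      have h6 := pow_le_pow_left₀ (by norm_num : (0 : ℤ) ≤ 2) h5 2
      rw [sq_abs] at h6
      linarith
    have h7 : ∑ χ' ∈ Finset.univ.erase χ, x i χ' ^ 2 + x i χ ^ 2 = 1 + (e : ℤ) := by
      rw [Finset.sum_erase_add _ _ (Finset.mem_univ χ), hnorm]
    have h8 : 0 ≤ ∑ χ' ∈ Finset.univ.erase χ, x i χ' ^ 2 := Finset.sum_nonneg fun _ _ => sq_nonneg _
    have he' : (e : ℤ) ≤ 3 := by exact_mod_cast he3
    have h9 : ∑ χ' ∈ Finset.univ.erase χ, x i χ' ^ 2 = 0 := by omega
    have h10 : (e : ℤ) = 3 := by
      omega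
    have h11 : ∀ χ', χ' ≠ χ → x i χ' = 0 := by
      intro χ' hχ'
      have h12 := (Finset.sum_eq_zero_iff_of_nonneg (fun _ _ => sq_nonneg _)).1 h9 χ'
        (Finset.mem_erase.2 ⟨hχ', Finset.mem_univ _⟩)
      exact pow_eq_zero_iff (two_ne_zero) |>.1 h12
    have h13 : x i χ ^ 2 = 4 := by omega
    have h14 : 2 ∣ x i χ := by
      have h15 : x i χ = 2 ∨ x i χ = -2 := by
        have : (x i χ - 2) * (x i χ + 2) = 0 := by linarith
        rcases mul_eq_zero.1 this with h | h
        · left; omega
        · right; omega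
      rcases h15 with h | h <;> rw [h] <;> norm_num
    by_cases hex : ∃ j, j ≠ i
    · obtain ⟨j, hj⟩ := hex
      have h16 := hG i j
      rw [if_neg (Ne.symm hj), Finset.sum_eq_single χ, h10] at h16
      · have h17 : (2 : ℤ) ∣ x i χ * x j χ := Dvd.dvd.mul_right h14 _
        rw [h16] at h17
        norm_num at h17
      · intro χ' _ hχ'
        rw [h11 χ' hχ', zero_mul]
      · intro h
        exact absurd (Finset.mem_univ _) h
    · push Not at hex
      obtain ⟨χ', hχ'⟩ : ∃ χ', χ' ≠ χ := by
        have := Fintype.one_lt_card_iff_nontrivial.1 (by omega : 1 < Fintype.card ι)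
        exact exists_ne χ
      obtain ⟨i', hi'⟩ := hne χ'
      rw [hex i'] at hi'
      exact hi' (h11 χ' hχ')
  set S : I → Finset ι := fun i => Finset.univ.filter (fun χ => x i χ ≠ 0) with hS
  have hsq : ∀ i χ, x i χ ^ 2 = if χ ∈ S i then 1 else 0 := by
    intro i χ
    simp only [hS, Finset.mem_filter, Finset.mem_univ, true_and]
    rcases hent i χ with h | h | h <;> simp [h]
  have hcard : ∀ i, (S i).card = e + 1 := by
    intro i
    have h1 := hnorm i
    simp_rw [hsq] at h1
    rw [Finset.sum_ite_mem, Finset.univ_inter] at h1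
    simp only [Finset.sum_const, nsmul_eq_mul, mul_one] at h1
    have h2 : ((S i).card : ℤ) = ((e + 1 : ℕ) : ℤ) := by
      rw [h1]
      push_cast
      ring
    exact_mod_cast h2
  have hinter : ∀ i j, i ≠ j → (S i ∩ S j).card = e := by
    intro i j hij
    have h1 := hG i j
    rw [if_neg hij, zero_add] at h1
    have h2 : ∀ χ, (x i χ * x j χ) ^ 2 = if χ ∈ S i ∩ S j then 1 else 0 := by
      intro χ
      rw [mul_pow, hsq, hsq]
      by_cases h3 : χ ∈ S i <;> by_cases h4 : χ ∈ S j <;> simp [h3, h4]
    have h3 : ∑ χ, (x i χ * x j χ) ^ 2 = ((S i ∩ S j).card : ℤ) := by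
      simp_rw [h2]
      rw [Finset.sum_ite_mem, Finset.univ_inter]
      simp
    have h4 : (e : ℤ) ≤ ((S i ∩ S j).card : ℤ) := by
      rw [← h1, ← h3]
      refine Finset.sum_le_sum fun χ _ => ?_
      rcases hent i χ with h | h | h <;> rcases hent j χ with h' | h' | h' <;> simp [h, h']
    have h5 : (2 : ℤ) ∣ ((S i ∩ S j).card : ℤ) - e := by
      rw [← h1, ← h3, ← Finset.sum_sub_distrib]
      refine Finset.dvd_sum fun χ _ => ?_
      rcases hent i χ with h | h | h <;> rcases hent j χ with h' | h' | h' <;> simp [h, h']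
    have h6 : (S i ∩ S j).card ≤ e + 1 := by
      rw [← hcard i]
      exact Finset.card_le_card Finset.inter_subset_left
    have h7 : e ≤ (S i ∩ S j).card := by exact_mod_cast h4
    obtain ⟨c, hc⟩ := h5
    have h8 : (S i ∩ S j).card = e ∨ (S i ∩ S j).card = e + 1 := by omega
    rcases h8 with h8 | h8
    · exact h8
    · rw [h8] at hc
      push_cast at hc
      omega
  have hU : Finset.univ.biUnion S = Finset.univ := by
    ext χ
    simp only [Finset.mem_biUnion, Finset.mem_univ, true_and, iff_true]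
    obtain ⟨i, hi⟩ := hne χ
    exact ⟨i, by simpa [hS] using hi⟩
  by_cases hex : ∃ i₀ i₁ : I, i₀ ≠ i₁
  · obtain ⟨i₀, i₁, h01⟩ := hex
    have := family_core S e hcard hinter i₀ i₁ h01
    rw [hU, Finset.card_univ] at this
    rcases this with h | h
    · left
      omega
    · right
      exact h
  · push Not at hex
    left
    obtain ⟨i⟩ : Nonempty I := Fintype.card_pos_iff.1 hs
    have h1 : S i = Finset.univ := by
      ext χ
      simp only [hS, Finset.mem_filter, Finset.mem_univ, true_and, iff_true]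
      obtain ⟨i', hi'⟩ := hne χ
      rwa [hex i' i] at hi'
    have h2 := hcard i
    rw [h1, Finset.card_univ] at h2
    have h3 : Fintype.card I = 1 := Fintype.card_eq_one_iff.2 ⟨i, fun y => hex y i⟩
    omega

end Cfsg.Agent.Lib.BFGram
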