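import Mathlib

/-!
# Automorphisms of odd order of a homocyclic `2`-group of rank two
-/

set_option autoImplicit false
set_option linter.unusedSectionVars false
set_option linter.unusedVariables false
set_option linter.style.haveILetI false

namespace Cfsg.Agent.Lib.BFHomo

/-- The subgroup of squares. -/
def sqs (W : Type*) [CommGroup W] : Subgroup W := (powMonoidHom 2 : W →* W).range

variable {W : Type*} [CommGroup W]

theorem mem_sqs {a : W} : a ∈ sqs W ↔ ∃ y : W, y ^ 2 = a := Iff.rfl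

theorem sqs_le_comap (σ : MulAut W) : sqs W ≤ (sqs W).comap (σ : W →* W) := by
  rintro _ ⟨y, rfl⟩
  refine ⟨σ y, ?_⟩
  simp

/-- The action on the quotient. -/
noncomputable def psi0 : MulAut W →* Equiv.Perm (W ⧸ sqs W) where
  toFun σ :=
    { toFun := QuotientGroup.map (sqs W) (sqs W) (σ : W →* W) (sqs_le_comap σ)
      invFun := QuotientGroup.map (sqs W) (sqs W) ((σ⁻¹ : MulAut W) : W →* W) (sqs_le_comap σ⁻¹)
      left_inv := by
        intro x
        induction x using QuotientGroup.induction_on with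
        | H a =>
          simp only [QuotientGroup.map_mk]
          congr 1
          exact σ.symm_apply_apply a
      right_inv := by
        intro x
        induction x using QuotientGroup.induction_on with
        | H a =>
          simp only [QuotientGroup.map_mk]
          congr 1
          exact σ.apply_symm_apply a }
  map_one' := by
    ext x
    induction x using QuotientGroup.induction_on with
    | H a =>
      show QuotientGroup.map (sqs W) (sqs W) (((1 : MulAut W)) : W →* W) (sqs_le_comap 1) (a : W ⧸ sqs W) = _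
      simp only [QuotientGroup.map_mk]
      rfl
  map_mul' σ τ := by
    ext x
    induction x using QuotientGroup.induction_on with
    | H a =>
      show QuotientGroup.map (sqs W) (sqs W) (((σ * τ : MulAut W)) : W →* W) (sqs_le_comap _) (a : W ⧸ sqs W) =
        QuotientGroup.map (sqs W) (sqs W) (σ : W →* W) (sqs_le_comap _) (QuotientGroup.map (sqs W) (sqs W) (τ : W →* W) (sqs_le_comap _) (a : W ⧸ sqs W))
      simp only [QuotientGroup.map_mk]
      rfl

theorem psi0_mk (σ : MulAut W) (a : W) : psi0 σ (a : W ⧸ sqs W) = ((σ a : W) : W ⧸ sqs W) := by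
  show QuotientGroup.map (sqs W) (sqs W) (σ : W →* W) (sqs_le_comap _) (a : W ⧸ sqs W) = _
  simp only [QuotientGroup.map_mk]
  rfl

theorem exists_of_psi0_eq_one {σ : MulAut W} (h : psi0 σ = 1) (a : W) : ∃ w : W, σ a = a * w ^ 2 := by
  have h1 : ((σ a : W) : W ⧸ sqs W) = (a : W ⧸ sqs W) := by
    rw [← psi0_mk, h]
    rfl
  have h2 : (σ a)⁻¹ * a ∈ sqs W := QuotientGroup.eq.1 h1
  obtain ⟨w, hw⟩ := h2
  refine ⟨w⁻¹, ?_⟩
  have hw' : w ^ 2 = (σ a)⁻¹ * a := hw
  rw [inv_pow, hw', mul_inv_rev, inv_inv]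
  group

theorem pow_two_pow {σ : MulAut W} (hσ : ∀ a, ∃ w : W, σ a = a * w ^ 2) (k : ℕ) (a : W) :
    ∃ w : W, (σ ^ (2 ^ k)) a = a * w ^ (2 ^ (k + 1)) := by
  induction k generalizing a with
  | zero => simpa using hσ a
  | succ k ih =>
    set τ := σ ^ (2 ^ k) with hτ
    obtain ⟨w, hw⟩ := ih a
    obtain ⟨z, hz⟩ := ih w
    refine ⟨w * z ^ (2 ^ k), ?_⟩
    have e1 : σ ^ (2 ^ (k + 1)) = τ * τ := by
      rw [hτ, pow_succ, pow_mul, pow_two]
    rw [e1]
    have e2 : (τ * τ) a = τ (τ a) := rfl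
    rw [e2, hw, map_mul, hw, map_pow, hz]
    have e3 : (2 : ℕ) ^ (k + 1 + 1) = 2 ^ (k + 1) + 2 ^ (k + 1) := by ring
    have e4 : (2 : ℕ) ^ (k + 1) * 2 ^ (k + 1) = 2 ^ k * 2 ^ (k + 1 + 1) := by ring
    rw [mul_pow, ← pow_mul, mul_pow, ← pow_mul, e4, e3, pow_add]
    simp only [mul_assoc]
    rw [pow_add w]
    simp only [mul_assoc]

/-- The hypotheses on a homocyclic group. -/
structure Homo (W : Type*) [CommGroup W] (m : ℕ) : Prop where
  hm : 1 ≤ m
  F1 : ∀ a : W, a ^ (2 ^ m) = 1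
  F2 : ∀ a : W, a ^ (2 ^ (m - 1)) = 1 → a ∈ sqs W
  F3 : ∀ a : W, a ^ 2 = 1 → ∃ y : W, y ^ (2 ^ (m - 1)) = a
  F4 : (sqs W).index = 4

variable {m : ℕ}

theorem pow_eq_one_of_psi0 (h : Homo W m) {σ : MulAut W} (hσ : psi0 σ = 1) : σ ^ (2 ^ (m - 1)) = 1 := by
  ext a
  obtain ⟨w, hw⟩ := pow_two_pow (exists_of_psi0_eq_one hσ) (m - 1) a
  have h1 : m - 1 + 1 = m := by have := h.hm; omega
  rw [h1, h.F1, mul_one] at hw
  exact hw

theorem eq_one_of_psi0 (h : Homo W m) {σ : MulAut W} (hσ : psi0 σ = 1) {n : ℕ} (hn : ¬ 2 ∣ n)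
    (hσn : σ ^ n = 1) : σ = 1 := by
  have h1 := orderOf_dvd_of_pow_eq_one (pow_eq_one_of_psi0 h hσ)
  have h2 := orderOf_dvd_of_pow_eq_one hσn
  have h3 : Nat.Coprime (2 ^ (m - 1)) n := Nat.Coprime.pow_left _ ((Nat.Prime.coprime_iff_not_dvd Nat.prime_two).2 hn)
  have h4 := Nat.eq_one_of_dvd_coprimes h3 h1 h2
  exact orderOf_eq_one_iff.1 h4

variable [Finite W]

/-- The number of cosets. -/
theorem card_quot (h : Homo W m) : Nat.card (W ⧸ sqs W) = 4 := h.F4

/-- A permutation of four points of order dividing three with two fixed points is trivial. -/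
theorem perm_eq_one {X : Type*} [Finite X] (hX : Nat.card X = 4) {τ : Equiv.Perm X} (hτ : τ ^ 3 = 1) {a b : X}
    (hab : a ≠ b) (ha : τ a = a) (hb : τ b = b) : τ = 1 := by
  classical
  letI : Fintype X := Fintype.ofFinite X
  let f : Function.End X := (⇑τ : X → X)
  have hf : f ^ 3 ^ 1 = 1 := by
    have e : ∀ n : ℕ, f ^ n = (⇑(τ ^ n) : X → X) := by
      intro n
      induction n with
      | zero => rfl
      | succ n ih =>
        rw [pow_succ, ih, pow_succ]
        rfl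
    rw [e, pow_one, hτ]
    rfl
  have h1 := Equiv.Perm.card_fixedPoints_modEq (p := 3) (n := 1) hf
  rw [← Nat.card_eq_fintype_card, hX] at h1
  set F := Function.fixedPoints (⇑τ : X → X) with hF
  have h2 : 2 ≤ Fintype.card F := by
    have : Fintype.card ({a, b} : Finset X) ≤ Fintype.card F := by
      refine Fintype.card_le_of_injective (fun x => ⟨x.1, ?_⟩) (fun x y hxy => Subtype.ext (congrArg (fun z => z.1) hxy))
      have := x.2
      simp only [Finset.mem_insert, Finset.mem_singleton] at this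
      rcases this with h | h
      · rw [h]; exact ha
      · rw [h]; exact hb
    rw [Fintype.card_coe, Finset.card_pair hab] at this
    exact this
  have h3 : Fintype.card F ≤ 4 := by
    have hXc : Fintype.card X = 4 := by rw [← Nat.card_eq_fintype_card, hX]
    have := Fintype.card_subtype_le (fun x => x ∈ F)
    rw [hXc] at this
    convert this
  have h4 : Fintype.card F = 4 := by
    have h5 : Fintype.card F % 3 = 1 := by
      have h6 : 4 ≡ Fintype.card F [MOD 3] := by convert h1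
      unfold Nat.ModEq at h6
      omega
    omega
  ext x
  by_contra hx
  have h6 : Fintype.card F < Fintype.card X := by
    refine Fintype.card_subtype_lt (x := x) ?_
    exact fun h => hx h
  rw [← Nat.card_eq_fintype_card (α := X), hX] at h6
  omega

/-- **The main lemma.** -/
theorem main_abs (h : Homo W m) {Γ : Type*} [Group Γ] (ρ : Γ →* MulAut W) (hodd : ¬ 2 ∣ ρ.ker.index) :
    (ρ.ker.index = 1 ∨ ρ.ker.index = 3) ∧ ∀ (γ : Γ) (a : W), a ≠ 1 → ρ γ a = a → ρ γ = 1 := by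
  classical
  have hpow : ∀ γ : Γ, ρ γ ^ ρ.ker.index = 1 := by
    intro γ
    have := Subgroup.pow_index_mem ρ.ker γ
    rw [MonoidHom.mem_ker, map_pow] at this
    exact this
  have hinj : ∀ γ : Γ, psi0 (ρ γ) = 1 → ρ γ = 1 := fun γ hγ => eq_one_of_psi0 h hγ hodd (hpow γ)
  have hdiv : ρ.ker.index ∣ 24 := by
    have h1 : (psi0.comp ρ).ker ≤ ρ.ker := by
      intro γ hγ
      rw [MonoidHom.mem_ker] at hγ ⊢
      exact hinj γ hγ
    have h2 := Subgroup.index_dvd_of_le h1
    have h3 : ((psi0 (W := W)).comp ρ).ker.index = Nat.card ((psi0 (W := W)).comp ρ).range := Subgroup.index_ker _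
    have h4 : Nat.card ((psi0 (W := W)).comp ρ).range ∣ Nat.card (Equiv.Perm (W ⧸ sqs W)) :=
      Subgroup.card_subgroup_dvd_card _
    have h5 : Nat.card (Equiv.Perm (W ⧸ sqs W)) = 24 := by
      letI : Fintype (W ⧸ sqs W) := Fintype.ofFinite _
      rw [Nat.card_eq_fintype_card, Fintype.card_perm, ← Nat.card_eq_fintype_card, card_quot h]
      rfl
    rw [h3] at h2
    rw [h5] at h4
    exact h2.trans h4
  have hcases : ρ.ker.index = 1 ∨ ρ.ker.index = 3 := by
    have h1 : ρ.ker.index ≤ 24 := Nat.le_of_dvd (by norm_num) hdiv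
    have h2 : ρ.ker.index ≠ 0 := fun h0 => by simp [h0] at hdiv
    generalize ρ.ker.index = n at *
    interval_cases n <;> omega
  refine ⟨hcases, fun γ a ha hγ => ?_⟩
  rcases hcases with h1 | h3
  · have := hpow γ
    rw [h1, pow_one] at this
    exact this
  apply hinj
  have h3' : psi0 (ρ γ) ^ 3 = 1 := by
    rw [← map_pow, ← h3, hpow, map_one]
  -- the fixed point
  set σ := ρ γ with hσ
  have hσp : ∀ n : ℕ, σ (a ^ n) = a ^ n := fun n => by rw [map_pow, hγ]
  obtain ⟨s, hs⟩ : ∃ s : ℕ, orderOf a = 2 ^ s := by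
    have : orderOf a ∣ 2 ^ m := orderOf_dvd_of_pow_eq_one (h.F1 a)
    obtain ⟨s, -, hs⟩ := (Nat.dvd_prime_pow Nat.prime_two).1 this
    exact ⟨s, hs⟩
  have hs0 : s ≠ 0 := by
    rintro rfl
    rw [pow_zero, orderOf_eq_one_iff] at hs
    exact ha hs
  obtain ⟨s, rfl⟩ := Nat.exists_eq_succ_of_ne_zero hs0
  set a' := a ^ (2 ^ s) with ha'
  have ha'2 : a' ^ 2 = 1 := by
    rw [ha', ← pow_mul, ← pow_succ, ← hs]
    exact pow_orderOf_eq_one a
  have ha'1 : a' ≠ 1 := by
    intro h0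
    have h1 := orderOf_dvd_of_pow_eq_one h0
    rw [hs] at h1
    have h2 := Nat.le_of_dvd (by positivity) h1
    have h3 : 2 ^ s < 2 ^ (s + 1) := Nat.pow_lt_pow_right (by norm_num) (by omega)
    omega
  obtain ⟨y, hy⟩ := h.F3 a' ha'2
  have hyS : y ∉ sqs W := by
    rintro ⟨z, rfl⟩
    apply ha'1
    rw [← hy]
    show ((z ^ 2)) ^ (2 ^ (m - 1)) = 1
    rw [← pow_mul, ← pow_succ']
    have h1 : m - 1 + 1 = m := by have := h.hm; omega
    rw [h1]
    exact h.F1 z
  have hσy : (σ y)⁻¹ * y ∈ sqs W := by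
    apply h.F2
    rw [mul_pow, inv_pow, ← map_pow, hy]
    have : σ a' = a' := hσp _
    rw [this, inv_mul_cancel]
  have hfix : psi0 σ (y : W ⧸ sqs W) = (y : W ⧸ sqs W) := by
    rw [psi0_mk]
    exact QuotientGroup.eq.2 hσy
  have hfix1 : psi0 σ ((1 : W) : W ⧸ sqs W) = ((1 : W) : W ⧸ sqs W) := by
    rw [psi0_mk, map_one]
  refine perm_eq_one (card_quot h) h3' ?_ hfix1 hfix
  intro h0
  have : (1 : W)⁻¹ * y ∈ sqs W := QuotientGroup.eq.1 h0
  rw [inv_one, one_mul] at this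
  exact hyS this

section Conc

omit [Finite W]

theorem zmod_F1 (m : ℕ) (a : ZMod (2 ^ m)) : 2 ^ m • a = 0 := by
  have h : ((2 ^ m : ℕ) : ZMod (2 ^ m)) = 0 := ZMod.natCast_self _
  rw [nsmul_eq_mul, h, zero_mul]

theorem zmod_F2 {m : ℕ} (hm : 1 ≤ m) (a : ZMod (2 ^ m)) (h : 2 ^ (m - 1) • a = 0) : ∃ b : ZMod (2 ^ m), 2 • b = a := by
  haveI : NeZero (2 ^ m) := ⟨by positivity⟩
  obtain ⟨n, rfl⟩ := ZMod.natCast_zmod_surjective a
  have h1 : ((2 ^ (m - 1) * n : ℕ) : ZMod (2 ^ m)) = 0 := by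
    rw [← h, nsmul_eq_mul]
    push_cast
    rfl
  rw [ZMod.natCast_eq_zero_iff] at h1
  have e : 2 ^ m = 2 ^ (m - 1) * 2 := by
    rw [← pow_succ]
    congr 1
    omega
  rw [e] at h1
  have h2 : 2 ∣ n := Nat.dvd_of_mul_dvd_mul_left (by positivity) h1
  obtain ⟨k, rfl⟩ := h2
  refine ⟨(k : ZMod (2 ^ m)), ?_⟩
  rw [nsmul_eq_mul]
  push_cast
  rfl

theorem zmod_F3 {m : ℕ} (hm : 1 ≤ m) (a : ZMod (2 ^ m)) (h : 2 • a = 0) : ∃ b : ZMod (2 ^ m), 2 ^ (m - 1) • b = a := by
  haveI : NeZero (2 ^ m) := ⟨by positivity⟩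
  obtain ⟨n, rfl⟩ := ZMod.natCast_zmod_surjective a
  have h1 : ((2 * n : ℕ) : ZMod (2 ^ m)) = 0 := by
    rw [← h, nsmul_eq_mul]
    push_cast
    rfl
  rw [ZMod.natCast_eq_zero_iff] at h1
  have e : 2 ^ m = 2 * 2 ^ (m - 1) := by
    rw [← pow_succ']
    congr 1
    omega
  rw [e] at h1
  have h2 : 2 ^ (m - 1) ∣ n := Nat.dvd_of_mul_dvd_mul_left (by norm_num) h1
  obtain ⟨k, rfl⟩ := h2
  refine ⟨(k : ZMod (2 ^ m)), ?_⟩
  rw [nsmul_eq_mul]
  push_cast
  rfl

/-- Reduction mod `2`. -/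
noncomputable def red {m : ℕ} (hm : 1 ≤ m) : ZMod (2 ^ m) →+ ZMod 2 :=
  (ZMod.castHom (dvd_pow_self 2 (by omega : m ≠ 0)) (ZMod 2)).toAddMonoidHom

theorem red_surj {m : ℕ} (hm : 1 ≤ m) : Function.Surjective (red hm) :=
  ZMod.castHom_surjective (dvd_pow_self 2 (by omega : m ≠ 0))

theorem red_eq_zero {m : ℕ} (hm : 1 ≤ m) (a : ZMod (2 ^ m)) : red hm a = 0 ↔ ∃ b : ZMod (2 ^ m), 2 • b = a := by
  haveI : NeZero (2 ^ m) := ⟨by positivity⟩
  constructor
  · intro h
    obtain ⟨n, rfl⟩ := ZMod.natCast_zmod_surjective a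
    have h1 : (n : ZMod 2) = 0 := by
      have : red hm (n : ZMod (2 ^ m)) = (n : ZMod 2) := map_natCast (ZMod.castHom (dvd_pow_self 2 (by omega : m ≠ 0)) (ZMod 2)) n
      rw [← this, h]
    rw [ZMod.natCast_eq_zero_iff] at h1
    obtain ⟨k, rfl⟩ := h1
    refine ⟨(k : ZMod (2 ^ m)), ?_⟩
    rw [nsmul_eq_mul]
    push_cast
    rfl
  · rintro ⟨b, rfl⟩
    rw [map_nsmul]
    generalize red hm b = x
    revert x
    decide

/-- The model group. -/
abbrev MW (m : ℕ) := Multiplicative (ZMod (2 ^ m) × ZMod (2 ^ m))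

/-- The homocyclic group is homocyclic. -/
theorem homo_of_equiv {W : Type*} [CommGroup W] {m : ℕ} (hm : 1 ≤ m) (φ : W ≃* MW m) : Homo W m := by
  have pow_coe : ∀ (x : MW m) (n : ℕ), (x ^ n).toAdd = n • x.toAdd := fun x n => rfl
  have hF1 : ∀ a : W, a ^ (2 ^ m) = 1 := by
    intro a
    apply φ.injective
    rw [map_pow, map_one]
    apply Multiplicative.toAdd.injective
    rw [pow_coe]
    refine Prod.ext ?_ ?_
    · exact zmod_F1 m _
    · exact zmod_F1 m _
  have hF2 : ∀ a : W, a ^ (2 ^ (m - 1)) = 1 → a ∈ sqs W := by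
    intro a ha
    have h1 : (φ a) ^ (2 ^ (m - 1)) = 1 := by rw [← map_pow, ha, map_one]
    have h2 := congrArg Multiplicative.toAdd h1
    rw [pow_coe] at h2
    obtain ⟨b₁, hb₁⟩ := zmod_F2 hm (φ a).toAdd.1 (congrArg Prod.fst h2)
    obtain ⟨b₂, hb₂⟩ := zmod_F2 hm (φ a).toAdd.2 (congrArg Prod.snd h2)
    refine ⟨φ.symm (Multiplicative.ofAdd (b₁, b₂)), ?_⟩
    apply φ.injective
    show φ ((φ.symm (Multiplicative.ofAdd (b₁, b₂))) ^ 2) = _
    rw [map_pow, φ.apply_symm_apply]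
    apply Multiplicative.toAdd.injective
    rw [pow_coe]
    exact Prod.ext hb₁ hb₂
  have hF3 : ∀ a : W, a ^ 2 = 1 → ∃ y : W, y ^ (2 ^ (m - 1)) = a := by
    intro a ha
    have h1 : (φ a) ^ 2 = 1 := by rw [← map_pow, ha, map_one]
    have h2 := congrArg Multiplicative.toAdd h1
    rw [pow_coe] at h2
    obtain ⟨b₁, hb₁⟩ := zmod_F3 hm (φ a).toAdd.1 (congrArg Prod.fst h2)
    obtain ⟨b₂, hb₂⟩ := zmod_F3 hm (φ a).toAdd.2 (congrArg Prod.snd h2)
    refine ⟨φ.symm (Multiplicative.ofAdd (b₁, b₂)), ?_⟩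
    apply φ.injective
    rw [map_pow, φ.apply_symm_apply]
    apply Multiplicative.toAdd.injective
    rw [pow_coe]
    exact Prod.ext hb₁ hb₂
  refine ⟨hm, hF1, hF2, hF3, ?_⟩
  -- the number of cosets of the squares
  let π : MW m →* Multiplicative (ZMod 2 × ZMod 2) := AddMonoidHom.toMultiplicative ((red hm).prodMap (red hm))
  let π' : W →* Multiplicative (ZMod 2 × ZMod 2) := π.comp φ.toMonoidHom
  have hsurj : Function.Surjective π' := by
    intro z
    obtain ⟨a, ha⟩ := red_surj hm z.toAdd.1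
    obtain ⟨b, hb⟩ := red_surj hm z.toAdd.2
    refine ⟨φ.symm (Multiplicative.ofAdd (a, b)), ?_⟩
    show π (φ (φ.symm (Multiplicative.ofAdd (a, b)))) = z
    rw [φ.apply_symm_apply]
    apply Multiplicative.toAdd.injective
    exact Prod.ext ha hb
  have hker : π'.ker = sqs W := by
    ext a
    rw [MonoidHom.mem_ker]
    constructor
    · intro h
      have h1 : ((red hm).prodMap (red hm)) (φ a).toAdd = 0 := congrArg Multiplicative.toAdd h
      obtain ⟨b₁, hb₁⟩ := (red_eq_zero hm _).1 (congrArg Prod.fst h1)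
      obtain ⟨b₂, hb₂⟩ := (red_eq_zero hm _).1 (congrArg Prod.snd h1)
      refine ⟨φ.symm (Multiplicative.ofAdd (b₁, b₂)), ?_⟩
      apply φ.injective
      show φ ((φ.symm (Multiplicative.ofAdd (b₁, b₂))) ^ 2) = _
      rw [map_pow, φ.apply_symm_apply]
      apply Multiplicative.toAdd.injective
      rw [pow_coe]
      exact Prod.ext hb₁ hb₂
    · rintro ⟨y, rfl⟩
      show π (φ (y ^ 2)) = 1
      rw [map_pow, map_pow]
      apply Multiplicative.toAdd.injective
      show 2 • (((red hm).prodMap (red hm)) (φ y).toAdd) = 0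
      generalize ((red hm).prodMap (red hm)) (φ y).toAdd = x
      revert x
      decide
  rw [← hker, Subgroup.index_ker, MonoidHom.range_eq_top.2 hsurj, Nat.card_congr (Subgroup.topEquiv).toEquiv]
  rw [Nat.card_congr Multiplicative.toAdd, Nat.card_prod, Nat.card_zmod]

end Conc

end Cfsg.Agent.Lib.BFHomo
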