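import Mathlib
import Cfsg.Agent.Lib.BrauerSat

/-!
# The inertial index of a block with a commutative defect group is prime to `p`
-/

set_option autoImplicit false
set_option linter.unusedSectionVars false
set_option linter.unusedVariables false
set_option linter.style.haveILetI false

namespace Cfsg.Agent.Lib.BFOdd

open Cfsg Cfsg.Agent.Lib.CharBasic Cfsg.Agent.Lib.CharInd Cfsg.Agent.Lib.CharIntegrality
open Cfsg.Agent.Lib.BlockLocal Cfsg.Agent.Lib.BlockIdem Cfsg.Agent.Lib.BlockNormal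
open Cfsg.Agent.Lib.BrauerMap Cfsg.Agent.Lib.BrauerPair Cfsg.Agent.Lib.BrauerSub
open Cfsg.Agent.Lib.BrauerConj Cfsg.Agent.Lib.BrauerThird Cfsg.Agent.Lib.BrauerMax
open Cfsg.Agent.Lib.BrauerStab Cfsg.Agent.Lib.BlockDefect Cfsg.Agent.Lib.BrauerCen
open Cfsg.Agent.Lib.BrauerFull Cfsg.Agent.Lib.BrauerLift Cfsg.Agent.Lib.BrauerIdx
open Cfsg.Agent.Lib.BrauerSat

universe u

variable {G : Type u} [Group G] [Fintype G] {p : ℕ} [hp : Fact p.Prime] {M : Ideal AlgInt}

local notation "𝐂[" R "]" => Subgroup.centralizer ((R : Subgroup G) : Set G)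
local notation "𝐍[" R "]" => Subgroup.normalizer ((R : Subgroup G) : Set G)

noncomputable local instance fintypeSubBFO (K : Subgroup G) : Fintype K := Fintype.ofFinite K

/-- The index of `C_G(P)` in the stabilizer `T` of the block of a maximal pair on a commutative
`P` is prime to `p`. -/
theorem not_dvd_relIndex (hM : IsPModular p M) {B : Set (IrrCharacter G)} {P T : Subgroup G}
    {e : Set (IrrCharacter (Subgroup.centralizer (P : Set G)))} (hmax : IsMaximalBrauerPair p M B P e)
    (hab : ∀ x ∈ P, ∀ y ∈ P, x * y = y * x)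
    (hT : ∀ y : G, y ∈ T ↔ y ∈ 𝐍[P] ∧ StabilizesBlock 𝐂[P] e y) :
    ¬ p ∣ (𝐂[P]).relIndex T := by
  haveI := isPrime_of_isPModular hM
  have he := hmax.1.1
  have hf : IsPBlock M e := he.2
  have hle : SubpairLE p M P e P e := Relation.ReflTransGen.refl
  have hTN : T ≤ 𝐍[P] := fun y hy => ((hT y).1 hy).1
  obtain ⟨hQT, hCT, -⟩ := stab_facts hT
  obtain ⟨E, hE, hEc⟩ := exists_block_stab hM (he.1.to_le le_rfl) hf hT
  have hfn : ∀ y : G, SubpairLE p M (Subgroup.map (MulEquiv.toMonoidHom (MulAut.conj (y : G))) P)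
      (conjBlock P y e) P e →
      Nat.card (P ⊓ 𝐍[Subgroup.map (MulEquiv.toMonoidHom (MulAut.conj (y : G))) P] : Subgroup G) ≤
        Nat.card (P ⊓ 𝐍[P] : Subgroup G) := by
    intro y _
    have h1 : P ⊓ 𝐍[P] = P := inf_eq_left.2 (Subgroup.le_normalizer)
    rw [h1]
    exact Subgroup.card_le_of_le inf_le_left
  have hD := isDefectGroup_nor_of_max hM hmax hf hle hT hE hEc hfn
  have m : CenMatch (P.subgroupOf T) P := cenMatch_of_stable hQT hCT
  haveI := normal_centralizer_subgroupOf hTN hQT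
  have hidx := not_dvd_index_sup_of_isDefectGroup hM
    (Subgroup.centralizer ((P.subgroupOf T : Subgroup T) : Set T))
    (c := twistSetE m.iso.symm e) (isPBlock_twistSetE _ hf)
    (fun x => m.stabilizes_hat ((hT x).1 x.2).2) hE
    (fun t => by rw [hEc, m.sbc_eq, m.twistSetE_symm]) hD
  have hker : (theta hTN).ker = Subgroup.centralizer ((P.subgroupOf T : Subgroup T) : Set T) := by
    ext t
    rw [mem_ker_theta, m.iff]
  rw [← hker] at hidx
  have hle2 : (P ⊓ 𝐍[P]).subgroupOf T ≤ (theta hTN).ker := by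
    intro t ht
    rw [Subgroup.mem_subgroupOf] at ht
    rw [mem_ker_theta, Subgroup.mem_centralizer_iff]
    intro q hq
    exact hab _ hq _ ht.1
  rw [sup_eq_right.2 hle2] at hidx
  have h1 : (theta hTN).ker = (𝐂[P]).subgroupOf T := by
    ext t
    rw [mem_ker_theta, Subgroup.mem_subgroupOf]
  rw [h1] at hidx
  exact hidx

end Cfsg.Agent.Lib.BFOdd
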