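import Mathlib

/-!
# The centralizer of an endomorphism has dimension at least that of the space
-/

set_option autoImplicit false
set_option linter.unusedSectionVars false
set_option linter.unusedVariables false
set_option linter.style.haveILetI false
set_option linter.unusedSimpArgs false
set_option linter.unusedDecidableInType false
set_option linter.unusedFintypeInType false

namespace Cfsg.Agent.Lib.BGCen

open Module

universe u

variable {K : Type*} [Field K]

/-- The centralizer of an endomorphism. -/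
noncomputable def commOf {U : Type u} [AddCommGroup U] [Module K U] (g : Module.End K U) :
    Submodule K (Module.End K U) :=
  LinearMap.ker (LinearMap.mulLeft K g - LinearMap.mulRight K g)

theorem mem_commOf {U : Type u} [AddCommGroup U] [Module K U] {g X : Module.End K U} :
    X ∈ commOf g ↔ g * X = X * g := by
  unfold commOf
  rw [LinearMap.mem_ker, LinearMap.sub_apply, sub_eq_zero]
  rfl

/-- The extension of an endomorphism of the image. -/
noncomputable def ext₁ {U A : Type u} [AddCommGroup U] [Module K U] [AddCommGroup A] [Module K A]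
    (ι : A →ₗ[K] U) (P : U →ₗ[K] A) (s : A →ₗ[K] U) (M : U →ₗ[K] A) : Module.End K A →ₗ[K] Module.End K U where
  toFun Y := ι.comp (Y.comp P) + s.comp (Y.comp (M.comp (LinearMap.id - ι.comp P)))
  map_add' := by
    intro A B
    ext u
    simp only [LinearMap.add_apply, LinearMap.comp_apply, map_add]
    abel
  map_smul' := by
    intro a A
    ext u
    simp only [LinearMap.add_apply, LinearMap.comp_apply, map_add, LinearMap.smul_apply, map_smul,
      RingHom.id_apply, smul_add]

theorem ext₁_apply {U A : Type u} [AddCommGroup U] [Module K U] [AddCommGroup A] [Module K A]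
    (ι : A →ₗ[K] U) (P : U →ₗ[K] A) (s : A →ₗ[K] U) (M : U →ₗ[K] A) (Y : Module.End K A) (u : U) :
    ext₁ ι P s M Y u = ι (Y (P u)) + s (Y (M (u - ι (P u)))) := rfl

/-- Rank one operators, linearly in the vector. -/
noncomputable def ext₂ {U : Type u} [AddCommGroup U] [Module K U] (φ : U →ₗ[K] K) : U →ₗ[K] Module.End K U where
  toFun v := φ.smulRight v
  map_add' := by
    intro A B
    ext u
    simp
  map_smul' := by
    intro a A
    ext u
    simp only [LinearMap.smulRight_apply, LinearMap.smul_apply, RingHom.id_apply]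
    rw [smul_comm]

theorem ext₂_apply {U : Type u} [AddCommGroup U] [Module K U] (φ : U →ₗ[K] K) (v u : U) :
    ext₂ φ v u = φ u • v := rfl

theorem finrank_prod_aux {A B : Type*} [AddCommGroup A] [Module K A] [AddCommGroup B] [Module K B]
    [FiniteDimensional K A] [FiniteDimensional K B] : finrank K (A × B) = finrank K A + finrank K B :=
  Module.finrank_prod

theorem step {U A : Type u} [AddCommGroup U] [Module K U] [FiniteDimensional K U] [AddCommGroup A]
    [Module K A] [FiniteDimensional K A] (N : Module.End K U) (N' : Module.End K A) (ι : A →ₗ[K] U)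
    (P : U →ₗ[K] A) (s : A →ₗ[K] U) (N'' : U →ₗ[K] A) (φ : U →ₗ[K] K)
    (hP' : ∀ w, P (ι w) = w) (hs' : ∀ w, N'' (s w) = w) (hιN'' : ∀ u, ι (N'' u) = N u)
    (hN''ι : ∀ w, N'' (ι w) = N' w) (hιinj : Function.Injective ι) (hιN' : ∀ w, ι (N' w) = N (ι w))
    (hφ0 : φ ≠ 0) (hφι : ∀ w, φ (ι w) = 0) :
    finrank K (commOf N') + finrank K (LinearMap.ker N) ≤ finrank K (commOf N) := by
  have hφN : ∀ u, φ (N u) = 0 := fun u => by
    rw [← hιN'', hφι]
  obtain ⟨E₁, hE₁⟩ : ∃ E₁, E₁ = ext₁ ι P s N'' := ⟨_, rfl⟩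
  obtain ⟨E₂, hE₂⟩ : ∃ E₂, E₂ = ext₂ φ := ⟨_, rfl⟩
  have hE₁' : ∀ Y u, E₁ Y u = ι (Y (P u)) + s (Y (N'' (u - ι (P u)))) := fun Y u => by rw [hE₁]; rfl
  have hE₂' : ∀ v u, E₂ v u = φ u • v := fun v u => by rw [hE₂]; rfl
  obtain ⟨Ψ₀, hΨ₀def⟩ : ∃ Ψ₀ : (commOf N') × LinearMap.ker N →ₗ[K] Module.End K U,
      Ψ₀ = (E₁.comp (commOf N').subtype).coprod (E₂.comp (LinearMap.ker N).subtype) := ⟨_, rfl⟩
  have hΨ₀ : ∀ Y v, Ψ₀ (Y, v) = E₁ Y + E₂ v := fun Y v => by
    rw [hΨ₀def]
    rfl
  have hmem : ∀ x, Ψ₀ x ∈ commOf N := by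
    rintro ⟨⟨Y, hY⟩, ⟨v, hv⟩⟩
    rw [mem_commOf]
    have hY' : N' * Y = Y * N' := mem_commOf.mp hY
    have hNv : N v = 0 := hv
    ext u
    rw [hΨ₀]
    simp only [Module.End.mul_apply, LinearMap.add_apply, map_add, hE₁', hE₂', map_smul, hNv, smul_zero,
      add_zero, hφN, zero_smul]
    have h1 : N (ι (Y (P u))) = ι (Y (N' (P u))) := by
      have := LinearMap.congr_fun hY' (P u)
      simp only [Module.End.mul_apply] at this
      rw [← this, hιN']
    have h2 : N (s (Y (N'' (u - ι (P u))))) = ι (Y (N'' (u - ι (P u)))) := by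
      rw [← hιN'', hs']
    have h3 : P (N u) = N'' u := by
      rw [← hιN'', hP']
    have h4 : N u - ι (N'' u) = 0 := by
      rw [hιN'', sub_self]
    rw [h1, h2, h3, h4, map_zero, map_zero, map_zero, add_zero, map_sub, map_sub, map_sub, hN''ι]
    abel
  let Ψ : (commOf N') × LinearMap.ker N →ₗ[K] commOf N := LinearMap.codRestrict _ Ψ₀ hmem
  have hinj : Function.Injective Ψ := by
    rw [injective_iff_map_eq_zero]
    rintro ⟨⟨Y, hY⟩, ⟨v, hv⟩⟩ h0
    have h1 : Ψ₀ (⟨Y, hY⟩, ⟨v, hv⟩) = 0 := congrArg Subtype.val h0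
    rw [hΨ₀] at h1
    have hY0 : Y = 0 := by
      ext w
      have h2 := LinearMap.congr_fun h1 (ι w)
      simp only [LinearMap.add_apply, hE₁', hE₂', hP', LinearMap.zero_apply, sub_self, map_zero, add_zero] at h2
      rw [hφι, zero_smul, add_zero] at h2
      have h4 : ι (Y w) = ι 0 := by rw [h2, map_zero]
      rw [hιinj h4]
      rfl
    have hv0 : v = 0 := by
      obtain ⟨u, hu⟩ : ∃ u, φ u ≠ 0 := by
        by_contra hcon
        push Not at hcon
        exact hφ0 (LinearMap.ext hcon)
      have h2 := LinearMap.congr_fun h1 u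
      simp only [hY0, LinearMap.add_apply, hE₁', hE₂', LinearMap.zero_apply, map_zero, add_zero, zero_add] at h2
      exact (smul_eq_zero.mp h2).resolve_left hu
    subst hY0
    subst hv0
    rfl
  have h := LinearMap.finrank_le_finrank_of_injective hinj
  rw [Module.finrank_prod] at h
  exact h

theorem finrank_le_commOf [IsAlgClosed K] : ∀ (n : ℕ) (U : Type u) [AddCommGroup U] [Module K U]
    [FiniteDimensional K U] (g : Module.End K U), finrank K U = n → n ≤ finrank K (commOf g) := by
  intro n
  induction n using Nat.strong_induction_on with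
  | _ n ih =>
  intro U _ _ _ g hn
  rcases subsingleton_or_nontrivial U with hU | hU
  · have : finrank K U = 0 := finrank_zero_of_subsingleton
    omega
  obtain ⟨c, hc⟩ := Module.End.exists_eigenvalue g
  obtain ⟨N, hN⟩ : ∃ N : Module.End K U, N = g - algebraMap K _ c := ⟨_, rfl⟩
  have hker : LinearMap.ker N ≠ ⊥ := by
    have := hc
    rw [Module.End.hasEigenvalue_iff, Module.End.eigenspace_def] at this
    rw [hN]
    exact this
  have hlt : LinearMap.range N < ⊤ := by
    rw [lt_top_iff_ne_top]
    intro h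
    exact hker (LinearMap.ker_eq_bot_iff_range_eq_top.mpr h)
  have hrank := LinearMap.finrank_range_add_finrank_ker N
  have hkpos : 1 ≤ finrank K (LinearMap.ker N) := Submodule.one_le_finrank_iff.mpr hker
  obtain ⟨N', hN'⟩ : ∃ N' : Module.End K (LinearMap.range N),
      N' = N.restrict (fun x _ => LinearMap.mem_range_self N x) := ⟨_, rfl⟩
  have IH := ih (finrank K (LinearMap.range N)) (by omega) (LinearMap.range N) N' rfl
  obtain ⟨φ, hφ0, hφ⟩ := Submodule.exists_le_ker_of_lt_top (LinearMap.range N) hlt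
  obtain ⟨ι, hι⟩ : ∃ ι, ι = (LinearMap.range N).subtype := ⟨_, rfl⟩
  obtain ⟨N'', hN''⟩ : ∃ N'' : U →ₗ[K] LinearMap.range N, N'' = N.rangeRestrict := ⟨_, rfl⟩
  obtain ⟨s, hs⟩ := LinearMap.exists_rightInverse_of_surjective N'' (by
    rw [hN'']
    exact LinearMap.range_rangeRestrict N)
  obtain ⟨P, hP⟩ := LinearMap.exists_leftInverse_of_injective ι (by
    rw [hι]
    exact Submodule.ker_subtype _)
  have hs' : ∀ w, N'' (s w) = w := fun w => LinearMap.congr_fun hs w
  have hP' : ∀ w, P (ι w) = w := fun w => LinearMap.congr_fun hP w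
  have hιN'' : ∀ u, ι (N'' u) = N u := fun u => by
    rw [hι, hN'']
    rfl
  have hιinj : Function.Injective ι := by
    intro a b hab
    rw [hι] at hab
    exact Subtype.ext hab
  have hN''ι : ∀ w, N'' (ι w) = N' w := fun w => by
    rw [hι, hN'', hN']
    rfl
  have hιN' : ∀ w, ι (N' w) = N (ι w) := fun w => by
    rw [hι, hN']
    rfl
  have hφι : ∀ w, φ (ι w) = 0 := fun w => by
    rw [hι]
    exact hφ w.2
  have hst := step N N' ι P s N'' φ hP' hs' hιN'' hN''ι hιinj hιN' hφ0 hφι
  have hcomm : commOf N = commOf g := by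
    ext X
    rw [mem_commOf, mem_commOf, hN, sub_mul, mul_sub, Algebra.commutes]
    constructor
    · intro h
      have := sub_left_injective h
      exact this
    · intro h
      rw [h]
  rw [hcomm] at hst
  omega

/-- The main bound. -/
theorem finrank_le_comm [IsAlgClosed K] {U : Type u} [AddCommGroup U] [Module K U]
    [FiniteDimensional K U] (g : Module.End K U) : finrank K U ≤ finrank K (commOf g) :=
  finrank_le_commOf _ U g rfl

end Cfsg.Agent.Lib.BGCen
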