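import Mathlib
import Cfsg.Agent.Lib.BGWeight

/-!
# Fixed points of operators permuting summands; conjugation on the endomorphism algebra
-/

set_option autoImplicit false
set_option linter.unusedSectionVars false
set_option linter.unusedVariables false
set_option linter.style.haveILetI false
set_option linter.unusedSimpArgs false
set_option linter.unusedDecidableInType false
set_option linter.unusedFintypeInType false

namespace Cfsg.Agent.Lib.BGWeight

open Module

section Orb

variable {K : Type*} [Field K] {A : Type*} [AddCommGroup A] [Module K A] [FiniteDimensional K A]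

/-- An operator permuting the summands: its fixed vectors are determined by components at
orbit representatives. -/
theorem finrank_fix_le {I : Type*} [Fintype I] (π : I → Module.End K A) (hπ : ∑ i, π i = 1)
    (g : Module.End K A) (σ : Equiv.Perm I) (hg : ∀ i, π (σ i) * g = g * π i)
    (R : Finset I) (hR : ∀ i, ∃ r ∈ R, ∃ k : ℕ, (σ ^ k) r = i) :
    finrank K (LinearMap.ker (g - 1)) ≤ ∑ r ∈ R, finrank K (LinearMap.range (π r)) := by
  classical
  let Φ : LinearMap.ker (g - 1) →ₗ[K] (∀ r : R, LinearMap.range (π r)) :=
    LinearMap.pi (fun r => ((π r).rangeRestrict).comp (LinearMap.ker (g - 1)).subtype)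
  have hinj : Function.Injective Φ := by
    rw [injective_iff_map_eq_zero]
    rintro ⟨T, hT⟩ h0
    have hgT : g T = T := by
      have : (g - 1) T = 0 := hT
      simpa [sub_eq_zero] using this
    have h1 : ∀ r ∈ R, π r T = 0 := by
      intro r hr
      have := congrFun h0 ⟨r, hr⟩
      exact congrArg Subtype.val this
    have hstep : ∀ i, π (σ i) T = g (π i T) := by
      intro i
      have := congrArg (fun f : Module.End K A => f T) (hg i)
      simp only [Module.End.mul_apply, hgT] at this
      exact this
    have hpow : ∀ (k : ℕ) (r : I), π r T = 0 → π ((σ ^ k) r) T = 0 := by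
      intro k
      induction k with
      | zero => intro r hr; simpa using hr
      | succ k ih =>
        intro r hr
        rw [pow_succ', Equiv.Perm.mul_apply, hstep, ih r hr, map_zero]
    have h2 : ∀ i, π i T = 0 := by
      intro i
      obtain ⟨r, hr, k, rfl⟩ := hR i
      exact hpow k r (h1 r hr)
    have h3 : T = 0 := by
      have := congrArg (fun f : Module.End K A => f T) hπ
      simp only [LinearMap.sum_apply, Module.End.one_apply, h2, Finset.sum_const_zero] at this
      exact this.symm
    exact Subtype.ext h3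
  have h := LinearMap.finrank_le_finrank_of_injective hinj
  rw [Module.finrank_pi_fintype] at h
  rw [← Finset.sum_coe_sort R (fun r => finrank K (LinearMap.range (π r)))]
  exact h

end Orb

section Reps

/-- Orbit representatives of a permutation with a fixed point `o`, all other orbits being large. -/
theorem exists_reps {I : Type*} [Fintype I] (σ : Equiv.Perm I) (o : I) (ho : σ o = o) (d : ℕ)
    (hd : ∀ i, i ≠ o → ∀ k : ℕ, 0 < k → (σ ^ k) i = i → d ∣ k) :
    ∃ R : Finset I, o ∈ R ∧ (∀ i, ∃ r ∈ R, ∃ k : ℕ, (σ ^ k) r = i) ∧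
      d * (R.card - 1) + 1 ≤ Fintype.card I ∧
      (0 < d → (∀ i, (σ ^ d) i = i) → d * (R.card - 1) + 1 = Fintype.card I) := by
  classical
  let S := Equiv.Perm.SameCycle.setoid σ
  let Q := Quotient S
  haveI : Fintype Q := Fintype.ofFinite Q
  let R : Finset I := (Finset.univ : Finset Q).image (fun c => c.out)
  have hpowo : ∀ k : ℕ, (σ ^ k) o = o := by
    intro k
    induction k with
    | zero => simp
    | succ k ih => rw [pow_succ', Equiv.Perm.mul_apply, ih, ho]
  have hout : ∀ i : I, ∃ k : ℕ, (σ ^ k) ((Quotient.mk S i).out) = i := by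
    intro i
    have h1 : S.r (Quotient.mk S i).out i := Quotient.exact (Quotient.out_eq _)
    exact Equiv.Perm.SameCycle.exists_nat_pow_eq h1
  have hoo : (Quotient.mk S o).out = o := by
    have h1 : S.r o (Quotient.mk S o).out := Quotient.exact (Quotient.out_eq _).symm
    obtain ⟨k, hk⟩ := Equiv.Perm.SameCycle.exists_nat_pow_eq h1
    rw [hpowo] at hk
    exact hk.symm
  have hinj : Function.Injective (fun c : Q => c.out) := by
    intro a b h
    have := congrArg (Quotient.mk S) h
    simpa using this
  have hcard : R.card = Fintype.card Q := by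
    rw [Finset.card_image_of_injective _ hinj]
    rfl
  have hsum : Fintype.card I = ∑ c : Q, Fintype.card {i // Quotient.mk S i = c} := by
    rw [← Fintype.card_sigma]
    exact (Fintype.card_congr (Equiv.sigmaFiberEquiv (Quotient.mk S))).symm
  let c₀ : Q := Quotient.mk S o
  have hc₀ : ∀ c : Q, c = c₀ → Fintype.card {i // Quotient.mk S i = c} = 1 := by
    rintro c rfl
    refine Fintype.card_eq_one_iff.mpr ⟨⟨o, rfl⟩, ?_⟩
    rintro ⟨i, hi⟩
    apply Subtype.ext
    have h1 : S.r o i := Quotient.exact hi.symm
    obtain ⟨k, hk⟩ := Equiv.Perm.SameCycle.exists_nat_pow_eq h1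
    rw [hpowo] at hk
    exact hk.symm
  have hoc : ∀ c : Q, c ≠ c₀ → c.out ≠ o := by
    intro c hc h
    apply hc
    have := Quotient.out_eq c
    rw [h] at this
    exact this.symm
  have hmk : ∀ c : Q, ∀ k : ℕ, Quotient.mk S ((σ ^ k) c.out) = c := by
    intro c k
    have h1 : S.r c.out ((σ ^ k) c.out) := by
      refine ⟨(k : ℤ), ?_⟩
      simp
    have h2 := Quotient.sound h1
    rw [← h2]
    exact Quotient.out_eq c
  have hmap : ∀ c : Q, c ≠ c₀ → d ≤ Fintype.card {i // Quotient.mk S i = c} := by
    intro c hc
    have hinj2 : Function.Injective (fun j : Fin d => (⟨(σ ^ (j : ℕ)) c.out, hmk c j⟩ : {i // Quotient.mk S i = c})) := by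
      have key : ∀ a b : ℕ, a < b → b < d → (σ ^ a) c.out = (σ ^ b) c.out → False := by
        intro a b hlt hb h1
        have h2 : (σ ^ (b - a)) c.out = c.out := by
          apply (σ ^ a).injective
          rw [← Equiv.Perm.mul_apply, ← pow_add, Nat.add_sub_cancel' hlt.le]
          exact h1.symm
        have h3 := hd _ (hoc c hc) _ (Nat.sub_pos_of_lt hlt) h2
        have h4 := Nat.le_of_dvd (Nat.sub_pos_of_lt hlt) h3
        omega
      intro a b hab
      have h1 : (σ ^ (a : ℕ)) c.out = (σ ^ (b : ℕ)) c.out := congrArg Subtype.val hab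
      by_contra hne
      have hne' : (a : ℕ) ≠ b := fun h => hne (Fin.ext h)
      rcases lt_or_gt_of_ne hne' with hlt | hlt
      · exact key _ _ hlt b.2 h1
      · exact key _ _ hlt a.2 h1.symm
    have := Fintype.card_le_of_injective _ hinj2
    simpa using this
  have hsplit : ∑ c : Q, Fintype.card {i // Quotient.mk S i = c} =
      Fintype.card {i // Quotient.mk S i = c₀} +
        ∑ c ∈ (Finset.univ : Finset Q).erase c₀, Fintype.card {i // Quotient.mk S i = c} := by
    exact (Finset.add_sum_erase Finset.univ (fun c => Fintype.card {i // Quotient.mk S i = c}) (Finset.mem_univ c₀)).symm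
  have hcard2 : ((Finset.univ : Finset Q).erase c₀).card = R.card - 1 := by
    rw [Finset.card_erase_of_mem (Finset.mem_univ c₀), hcard]
    rfl
  refine ⟨R, ?_, ?_, ?_, ?_⟩
  · refine Finset.mem_image.mpr ⟨c₀, Finset.mem_univ _, hoo⟩
  · intro i
    obtain ⟨k, hk⟩ := hout i
    exact ⟨_, Finset.mem_image.mpr ⟨Quotient.mk S i, Finset.mem_univ _, rfl⟩, k, hk⟩
  · rw [hsum, hsplit, hc₀ c₀ rfl]
    have h1 : ∑ c ∈ (Finset.univ : Finset Q).erase c₀, d ≤
        ∑ c ∈ (Finset.univ : Finset Q).erase c₀, Fintype.card {i // Quotient.mk S i = c} :=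
      Finset.sum_le_sum (fun c hc => hmap c (Finset.ne_of_mem_erase hc))
    rw [Finset.sum_const, hcard2, smul_eq_mul, mul_comm] at h1
    omega
  · intro hdpos hσ
    rw [hsum, hsplit, hc₀ c₀ rfl]
    have hexact : ∀ c ∈ (Finset.univ : Finset Q).erase c₀,
        Fintype.card {i // Quotient.mk S i = c} = d := by
      intro c hc
      refine le_antisymm ?_ (hmap c (Finset.ne_of_mem_erase hc))
      -- every element of the class is `σ ^ j` of the representative, `j < d`
      haveI : NeZero d := ⟨hdpos.ne'⟩
      have hsurj : Function.Surjective (fun j : Fin d => (⟨(σ ^ (j : ℕ)) c.out, hmk c j⟩ : {i // Quotient.mk S i = c})) := by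
        rintro ⟨i, hi⟩
        have h1 : S.r c.out i := by
          have := Quotient.out_eq c
          apply Quotient.exact
          rw [this, hi]
        obtain ⟨k, hk⟩ := Equiv.Perm.SameCycle.exists_nat_pow_eq h1
        refine ⟨⟨k % d, Nat.mod_lt _ hdpos⟩, Subtype.ext ?_⟩
        show (σ ^ (k % d)) c.out = i
        have hpd : ∀ (t : ℕ) (x : I), (σ ^ (d * t)) x = x := by
          intro t
          induction t with
          | zero => intro x; simp
          | succ t ih =>
            intro x
            rw [Nat.mul_succ, pow_add, Equiv.Perm.mul_apply, hσ, ih]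
        rw [← hk]
        conv_rhs => rw [← Nat.mod_add_div k d]
        rw [pow_add, Equiv.Perm.mul_apply, hpd]
      have := Fintype.card_le_of_surjective _ hsurj
      simpa using this
    rw [Finset.sum_congr rfl hexact, Finset.sum_const, hcard2, smul_eq_mul]
    ring

end Reps

section Ad

variable {K : Type*} [Field K] {U : Type*} [AddCommGroup U] [Module K U]

/-- Conjugation on the endomorphism algebra. -/
noncomputable def adHom : (Module.End K U)ˣ →* Module.End K (Module.End K U) where
  toFun g := (LinearMap.mulLeft K (g : Module.End K U)).comp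
    (LinearMap.mulRight K ((g⁻¹ : (Module.End K U)ˣ) : Module.End K U))
  map_one' := by
    ext X u
    simp
  map_mul' := by
    intro a b
    ext X u
    simp [mul_assoc]

theorem adHom_apply (g : (Module.End K U)ˣ) (X : Module.End K U) :
    adHom g X = (g : Module.End K U) * X * ((g⁻¹ : (Module.End K U)ˣ) : Module.End K U) := by
  simp [adHom, mul_assoc]

/-- The centralizer of an invertible operator in the endomorphism algebra, as a kernel. -/
noncomputable abbrev fixAd (g : (Module.End K U)ˣ) : Submodule K (Module.End K U) :=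
  LinearMap.ker (adHom g - 1)

theorem mem_fixAd {g : (Module.End K U)ˣ} {X : Module.End K U} :
    X ∈ fixAd g ↔ (g : Module.End K U) * X = X * g := by
  rw [LinearMap.mem_ker, LinearMap.sub_apply, sub_eq_zero, adHom_apply, Module.End.one_apply]
  constructor
  · intro h
    calc (g : Module.End K U) * X = (g : Module.End K U) * X * (((g⁻¹ : (Module.End K U)ˣ) : Module.End K U) * g) := by
          rw [Units.inv_mul, mul_one]
      _ = ((g : Module.End K U) * X * ((g⁻¹ : (Module.End K U)ˣ) : Module.End K U)) * g := by
          rw [mul_assoc, mul_assoc, mul_assoc]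
      _ = X * g := by rw [h]
  · intro h
    rw [h, mul_assoc, Units.mul_inv, mul_one]

end Ad

section Eig

variable {K : Type*} [Field K] [IsAlgClosed K] {U : Type*} [AddCommGroup U] [Module K U]
  [FiniteDimensional K U] {W : Type*} [CommGroup W] [Finite W]

/-- The commutant of a diagonalizable abelian group contains the product of the endomorphism
algebras of its weight spaces. -/
theorem sum_sq_le_commutant [Fintype (W →* Kˣ)] (hW : (Nat.card W : K) ≠ 0) (ρ : W →* Module.End K U)
    (C : Submodule K (Module.End K U)) (hC : ∀ X : Module.End K U, (∀ w, ρ w * X = X * ρ w) → X ∈ C) :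
    ∑ ψ : W →* Kˣ, (finrank K (wsp ρ ψ)) ^ 2 ≤ finrank K C := by
  classical
  haveI := Fintype.ofFinite W
  have hW' : (Fintype.card W : K) ≠ 0 := by rwa [← Nat.card_eq_fintype_card]
  let cod : ∀ ψ : W →* Kˣ, U →ₗ[K] wsp ρ ψ :=
    fun ψ => LinearMap.codRestrict (wsp ρ ψ) (eproj ρ ψ) (eproj_mem ρ ψ)
  let Φ₀ : (∀ ψ : W →* Kˣ, Module.End K (wsp ρ ψ)) →ₗ[K] Module.End K U :=
    { toFun := fun T => ∑ ψ, (wsp ρ ψ).subtype.comp ((T ψ).comp (cod ψ))
      map_add' := by
        intro S T
        rw [← Finset.sum_add_distrib]
        refine Finset.sum_congr rfl ?_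
        intro ψ _
        ext u
        simp
      map_smul' := by
        intro c T
        rw [Finset.smul_sum]
        refine Finset.sum_congr rfl ?_
        intro ψ _
        ext u
        simp }
  have hΦ₀ : ∀ T, Φ₀ T = ∑ ψ, (wsp ρ ψ).subtype.comp ((T ψ).comp (cod ψ)) := fun T => rfl
  have hmem : ∀ T, Φ₀ T ∈ C := by
    intro T
    apply hC
    intro w
    rw [hΦ₀, Finset.mul_sum, Finset.sum_mul]
    refine Finset.sum_congr rfl ?_
    intro ψ _
    ext u
    simp only [Module.End.mul_apply, LinearMap.comp_apply, Submodule.subtype_apply]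
    have h1 : ρ w (((T ψ) (cod ψ u) : wsp ρ ψ) : U) = ((ψ w : Kˣ) : K) • (((T ψ) (cod ψ u) : wsp ρ ψ) : U) :=
      ((T ψ) (cod ψ u)).2 w
    have h2 : cod ψ (ρ w u) = ((ψ w : Kˣ) : K) • cod ψ u := by
      apply Subtype.ext
      have := congrArg (fun f : Module.End K U => f u) (eproj_rho ρ ψ w)
      simpa [cod] using this
    rw [h1, h2, map_smul]
    simp
  let Φ : (∀ ψ : W →* Kˣ, Module.End K (wsp ρ ψ)) →ₗ[K] C := LinearMap.codRestrict C Φ₀ hmem
  have hinj : Function.Injective Φ := by
    rw [injective_iff_map_eq_zero]
    intro T hT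
    have h0 : Φ₀ T = 0 := congrArg Subtype.val hT
    funext μ
    ext ⟨v, hv⟩
    have h1 := congrArg (fun f : Module.End K U => f v) h0
    simp only [hΦ₀, LinearMap.sum_apply, LinearMap.comp_apply, Submodule.subtype_apply, LinearMap.zero_apply] at h1
    have h2 : ∀ ψ, cod ψ v = if ψ = μ then ⟨(if ψ = μ then v else 0), by
        split_ifs with h
        · rw [h]; exact hv
        · exact Submodule.zero_mem _⟩ else 0 := by
      intro ψ
      apply Subtype.ext
      show eproj ρ ψ v = _
      rw [eproj_of_mem hW' ρ ψ μ hv]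
      split_ifs <;> rfl
    rw [Finset.sum_eq_single μ] at h1
    · have h3 : cod μ v = ⟨v, hv⟩ := by
        rw [h2]
        simp
      rw [h3] at h1
      simpa using h1
    · intro ψ _ hψ
      rw [h2, if_neg hψ, map_zero]
      rfl
    · intro h
      exact absurd (Finset.mem_univ μ) h
  have h := LinearMap.finrank_le_finrank_of_injective hinj
  rw [Module.finrank_pi_fintype] at h
  simp only [Module.finrank_linearMap] at h
  simpa [sq] using h

end Eig

end Cfsg.Agent.Lib.BGWeight
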