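import Mathlib
import Cfsg.Agent.Lib.BGWeight2

/-!
# Groups acting with scalar commutators: the conjugation action on the endomorphism algebra
-/

set_option autoImplicit false
set_option linter.unusedSectionVars false
set_option linter.unusedVariables false
set_option linter.style.haveILetI false
set_option linter.unusedSimpArgs false
set_option linter.unusedDecidableInType false
set_option linter.unusedFintypeInType false

namespace Cfsg.Agent.Lib.BGSymp

open Module Cfsg.Agent.Lib.BGWeight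

section Scal

variable {K : Type*} [Field K] {U : Type*} [AddCommGroup U] [Module K U]

/-- A scalar invertible operator. -/
def IsScal (g : (Module.End K U)ˣ) : Prop :=
  ∃ c : K, (g : Module.End K U) = c • (1 : Module.End K U)

theorem IsScal.one : IsScal (1 : (Module.End K U)ˣ) := ⟨1, by simp⟩

theorem IsScal.mul {a b : (Module.End K U)ˣ} (ha : IsScal a) (hb : IsScal b) : IsScal (a * b) := by
  obtain ⟨c, hc⟩ := ha
  obtain ⟨d, hd⟩ := hb
  refine ⟨c * d, ?_⟩
  rw [Units.val_mul, hc, hd, smul_mul_smul_comm, one_mul]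

theorem IsScal.inv {a : (Module.End K U)ˣ} (ha : IsScal a) : IsScal a⁻¹ := by
  obtain ⟨c, hc⟩ := ha
  by_cases h0 : c = 0
  · refine ⟨0, ?_⟩
    have h1 : (a : Module.End K U) = 0 := by rw [hc, h0, zero_smul]
    have h2 : (1 : Module.End K U) = 0 := by
      rw [← Units.mul_inv a, h1, zero_mul]
    have : Subsingleton (Module.End K U) := subsingleton_of_zero_eq_one h2.symm
    exact Subsingleton.elim _ _
  · refine ⟨c⁻¹, ?_⟩
    have h : (a : Module.End K U) * (c⁻¹ • (1 : Module.End K U)) = 1 := by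
      rw [hc, smul_mul_smul_comm, mul_inv_cancel₀ h0]
      simp
    calc ((a⁻¹ : (Module.End K U)ˣ) : Module.End K U)
        = ((a⁻¹ : (Module.End K U)ˣ) : Module.End K U) * ((a : Module.End K U) * (c⁻¹ • (1 : Module.End K U))) := by
          rw [h, mul_one]
      _ = c⁻¹ • (1 : Module.End K U) := by rw [← mul_assoc, Units.inv_mul, one_mul]

theorem IsScal.comm {a : (Module.End K U)ˣ} (ha : IsScal a) (b : (Module.End K U)ˣ) : a * b = b * a := by
  obtain ⟨c, hc⟩ := ha
  apply Units.ext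
  rw [Units.val_mul, Units.val_mul, hc]
  simp

theorem adHom_mul (g : (Module.End K U)ˣ) (X Y : Module.End K U) :
    adHom g (X * Y) = adHom g X * adHom g Y := by
  simp only [adHom_apply]
  have : (g : Module.End K U) * X * (((g⁻¹ : (Module.End K U)ˣ) : Module.End K U)) *
      ((g : Module.End K U) * Y * (((g⁻¹ : (Module.End K U)ˣ) : Module.End K U))) =
      (g : Module.End K U) * X * ((((g⁻¹ : (Module.End K U)ˣ) : Module.End K U)) * (g : Module.End K U)) * Y *
        (((g⁻¹ : (Module.End K U)ˣ) : Module.End K U)) := by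
    noncomm_ring
  rw [this, Units.inv_mul, mul_one]
  noncomm_ring

theorem adHom_unit (g t : (Module.End K U)ˣ) :
    adHom g (t : Module.End K U) = ((g * t * g⁻¹ : (Module.End K U)ˣ) : Module.End K U) := by
  rw [adHom_apply]
  simp

/-- The commutant of a subgroup. -/
def commutant (T : Subgroup (Module.End K U)ˣ) : Submodule K (Module.End K U) where
  carrier := {X | ∀ t ∈ T, (t : Module.End K U) * X = X * t}
  add_mem' := by
    intro a b ha hb t ht
    rw [mul_add, add_mul, ha t ht, hb t ht]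
  zero_mem' := by
    intro t ht
    simp
  smul_mem' := by
    intro c X hX t ht
    rw [mul_smul_comm, smul_mul_assoc, hX t ht]

theorem mem_commutant {T : Subgroup (Module.End K U)ˣ} {X : Module.End K U} :
    X ∈ commutant T ↔ ∀ t ∈ T, (t : Module.End K U) * X = X * t := Iff.rfl

end Scal

section Char

variable {K : Type*} [Field K] {A : Type*} [AddCommGroup A] [Module K A] {W : Type*} [CommGroup W]

/-- A common eigenvector of a commutative group is a weight vector. -/
theorem exists_char (ρ : W →* Module.End K A) {X : A} (hX : X ≠ 0)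
    (h : ∀ w, ∃ c : K, ρ w X = c • X) : ∃ ψ : W →* Kˣ, X ∈ wsp ρ ψ := by
  classical
  choose c hc using h
  have huniq : ∀ {a b : K}, a • X = b • X → a = b := by
    intro a b hab
    exact smul_left_injective K hX hab
  let f : W →* K :=
    { toFun := c
      map_one' := by
        apply huniq
        rw [← hc 1]
        simp
      map_mul' := by
        intro a b
        apply huniq
        rw [← hc (a * b), map_mul, Module.End.mul_apply, hc b, map_smul, hc a, smul_smul, mul_comm] }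
  refine ⟨f.toHomUnits, ?_⟩
  intro w
  rw [hc w]
  simp [f]

theorem char_unique (ρ : W →* Module.End K A) {X : A} (hX : X ≠ 0) {ψ μ : W →* Kˣ}
    (h1 : X ∈ wsp ρ ψ) (h2 : X ∈ wsp ρ μ) : ψ = μ := by
  ext w
  have h3 := (h1 w).symm.trans (h2 w)
  exact smul_left_injective K hX h3

end Char

section Sq

variable {K : Type*} [Field K] [IsAlgClosed K] {W : Type*} [CommGroup W] [Finite W]

/-- An alternating nondegenerate pairing forces square order. -/
theorem exists_sq (hW : (Nat.card W : K) ≠ 0) (κ : W →* (W →* Kˣ))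
    (hinj : Function.Injective κ) (halt : ∀ w, κ w w = 1) : ∃ N : ℕ, Nat.card W = N ^ 2 := by
  classical
  have hanti : ∀ a b : W, κ a b * κ b a = 1 := by
    intro a b
    have h := halt (a * b)
    rw [map_mul, map_mul, MonoidHom.mul_apply, MonoidHom.mul_apply, halt a, halt b] at h
    simp only [one_mul, mul_one] at h
    rw [mul_comm]
    exact h
  -- a maximal isotropic subgroup
  let P : Subgroup W → Prop := fun L => ∀ a ∈ L, ∀ b ∈ L, κ a b = 1
  have hP : P ⊥ := by
    intro a ha b hb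
    rw [Subgroup.mem_bot] at ha
    rw [ha]
    simp
  obtain ⟨L, hL1, hL2⟩ : ∃ L, P L ∧ ∀ L', P L' → L ≤ L' → L' = L := by
    obtain ⟨L, hL0, hL⟩ := Set.exists_max_image {L : Subgroup W | P L} (fun L => Nat.card L)
      (Set.toFinite _) ⟨⊥, hP⟩
    refine ⟨L, hL0, ?_⟩
    intro L' hL' hle
    exact (Subgroup.eq_of_le_of_card_ge hle (hL L' hL')).symm
  have e1 : ∀ (x y : W) (i : ℤ), κ x (y ^ i) = (κ x y) ^ i := fun x y i => map_zpow (κ x) y i
  have e2 : ∀ (x y : W) (i : ℤ), κ (x ^ i) y = (κ x y) ^ i := by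
    intro x y i
    rw [map_zpow]
    rfl
  have hperp : ∀ w, (∀ a ∈ L, κ w a = 1) → w ∈ L := by
    intro w hw
    have hPL' : P (L ⊔ Subgroup.zpowers w) := by
      intro a ha b hb
      obtain ⟨a1, ha1, a2, ha2, rfl⟩ := Subgroup.mem_sup.mp ha
      obtain ⟨b1, hb1, b2, hb2, rfl⟩ := Subgroup.mem_sup.mp hb
      obtain ⟨i, rfl⟩ := Subgroup.mem_zpowers_iff.mp ha2
      obtain ⟨j, rfl⟩ := Subgroup.mem_zpowers_iff.mp hb2
      have h2 : κ a1 w = 1 := by
        have := hanti a1 w
        rwa [hw a1 ha1, mul_one] at this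
      have ex : ∀ a b c : W, κ (a * b) c = κ a c * κ b c := by
        intro a b c
        rw [map_mul]
        rfl
      rw [map_mul, ex, ex, e2, e2, e1, e1, halt, hL1 a1 ha1 b1 hb1, h2, hw b1 hb1]
      simp
    have := hL2 _ hPL' le_sup_left
    rw [← this]
    exact Subgroup.mem_sup_right (Subgroup.mem_zpowers w)
  have hcL : (Nat.card L : K) ≠ 0 := by
    obtain ⟨c, hc⟩ := Subgroup.card_subgroup_dvd_card L
    intro h
    apply hW
    rw [hc]
    simp [h]
  have hcQ : (Nat.card (W ⧸ L) : K) ≠ 0 := by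
    obtain ⟨c, hc⟩ : Nat.card (W ⧸ L) ∣ Nat.card W := by
      rw [← Subgroup.index_eq_card]
      exact Subgroup.index_dvd_card L
    intro h
    apply hW
    rw [hc]
    simp [h]
  haveI := enough (K := K) hcL
  haveI := enough (K := K) hcQ
  haveI := finite_dual (K := K) hcL
  haveI := finite_dual (K := K) hcQ
  have hcardL := CommGroup.card_monoidHom_of_hasEnoughRootsOfUnity L K
  have hcardQ := CommGroup.card_monoidHom_of_hasEnoughRootsOfUnity (W ⧸ L) K
  -- first inequality
  let f : W →* (L →* Kˣ) :=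
    { toFun := fun w => (κ w).comp L.subtype
      map_one' := by
        ext a
        simp
      map_mul' := by
        intro a b
        ext c
        simp }
  have hker : f.ker = L := by
    ext w
    rw [MonoidHom.mem_ker]
    constructor
    · intro h
      apply hperp
      intro a ha
      have := congrArg (fun g : L →* Kˣ => g ⟨a, ha⟩) h
      simpa [f] using this
    · intro hw
      ext a
      simp [f, hL1 w hw a a.2]
  have h1 : Nat.card W ≤ Nat.card L * Nat.card L := by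
    have h2 : Nat.card W = Nat.card f.ker * f.ker.index := (Subgroup.card_mul_index _).symm
    rw [h2, hker]
    apply Nat.mul_le_mul_left
    have h5 := Subgroup.index_ker f
    rw [hker] at h5
    rw [h5]
    calc Nat.card f.range ≤ Nat.card (L →* Kˣ) := Nat.card_le_card_of_injective _ Subtype.val_injective
      _ = Nat.card L := hcardL
  -- second inequality
  let g : L → ((W ⧸ L) →* Kˣ) := fun a =>
    QuotientGroup.lift L (κ (a : W)) (by
      intro x hx
      exact hL1 a a.2 x hx)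
  have hg : Function.Injective g := by
    intro a b hab
    apply Subtype.ext
    apply hinj
    refine MonoidHom.ext (fun w => ?_)
    have := congrArg (fun h : (W ⧸ L) →* Kˣ => h (QuotientGroup.mk w)) hab
    exact this
  have h3 : Nat.card L ≤ Nat.card (W ⧸ L) := by
    rw [← hcardQ]
    exact Nat.card_le_card_of_injective g hg
  have h4 : Nat.card W = Nat.card L * Nat.card (W ⧸ L) := by
    rw [← Subgroup.index_eq_card, Subgroup.card_mul_index]
  refine ⟨Nat.card L, ?_⟩
  rw [sq]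
  refine le_antisymm h1 ?_
  rw [h4]
  exact Nat.mul_le_mul_left _ h3

end Sq

section Data

variable {K : Type*} [Field K] {U : Type*} [AddCommGroup U] [Module K U]

/-- Data of a group of operators with scalar commutators. -/
structure SympData (T : Subgroup (Module.End K U)ˣ) (W : Type*) [CommGroup W] where
  q : ↥T →* W
  q_surj : Function.Surjective q
  q_ker : ∀ t : ↥T, q t = 1 ↔ IsScal (t : (Module.End K U)ˣ)
  Ad : W →* Module.End K (Module.End K U)
  Ad_q : ∀ t : ↥T, Ad (q t) = adHom (t : (Module.End K U)ˣ)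

variable {T : Subgroup (Module.End K U)ˣ} {W : Type*} [CommGroup W] (D : SympData T W)

namespace SympData

variable [Nontrivial U]

theorem unit_ne_zero (t : (Module.End K U)ˣ) : (t : Module.End K U) ≠ 0 := by
  haveI : Nontrivial (Module.End K U) := inferInstance
  exact Units.ne_zero t

theorem exists_chi (t : ↥T) :
    ∃ ψ : W →* Kˣ, ((t : (Module.End K U)ˣ) : Module.End K U) ∈ wsp D.Ad ψ := by
  apply exists_char D.Ad (unit_ne_zero _)
  intro w
  obtain ⟨b, rfl⟩ := D.q_surj w
  have h : D.q (b * t * b⁻¹ * t⁻¹) = 1 := by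
    simp only [map_mul, map_inv]
    rw [mul_comm (D.q b), mul_assoc (D.q t), mul_inv_cancel, mul_one, mul_inv_cancel]
  obtain ⟨c, hc⟩ := (D.q_ker _).mp h
  refine ⟨c, ?_⟩
  rw [D.Ad_q, adHom_unit]
  have h2 : ((b : (Module.End K U)ˣ) * t * (b : (Module.End K U)ˣ)⁻¹ : (Module.End K U)ˣ) =
      (((b * t * b⁻¹ * t⁻¹ : ↥T) : (Module.End K U)ˣ)) * t := by
    simp
  rw [h2, Units.val_mul, hc]
  simp

/-- The character attached to an element. -/
noncomputable def chi (t : ↥T) : W →* Kˣ := Classical.choose (D.exists_chi t)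

theorem chi_spec (t : ↥T) : ((t : (Module.End K U)ˣ) : Module.End K U) ∈ wsp D.Ad (D.chi t) :=
  Classical.choose_spec (D.exists_chi t)

theorem chi_eq_of_mem {t : ↥T} {ψ : W →* Kˣ}
    (h : ((t : (Module.End K U)ˣ) : Module.End K U) ∈ wsp D.Ad ψ) : D.chi t = ψ :=
  char_unique D.Ad (unit_ne_zero _) (D.chi_spec t) h

theorem chi_mul (a b : ↥T) : D.chi (a * b) = D.chi a * D.chi b := by
  apply D.chi_eq_of_mem
  intro w
  obtain ⟨c, rfl⟩ := D.q_surj w
  have h1 := D.chi_spec a (D.q c)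
  have h2 := D.chi_spec b (D.q c)
  rw [D.Ad_q] at h1 h2 ⊢
  have h3 : (((a * b : ↥T) : (Module.End K U)ˣ) : Module.End K U) =
      ((a : (Module.End K U)ˣ) : Module.End K U) * ((b : (Module.End K U)ˣ) : Module.End K U) := by
    simp
  rw [h3, adHom_mul, h1, h2, smul_mul_smul_comm]
  simp

/-- The attached character as a homomorphism. -/
noncomputable def chiHom : ↥T →* (W →* Kˣ) :=
  MonoidHom.mk' D.chi D.chi_mul

theorem chi_eq_one_of_scal {t : ↥T} (h : IsScal (t : (Module.End K U)ˣ)) : D.chi t = 1 := by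
  apply D.chi_eq_of_mem
  intro w
  obtain ⟨c, rfl⟩ := D.q_surj w
  rw [D.Ad_q, adHom_unit]
  have : ((c : (Module.End K U)ˣ) * t * (c : (Module.End K U)ˣ)⁻¹ : (Module.End K U)ˣ) = t := by
    rw [← h.comm]
    group
  rw [this]
  simp

theorem isScal_of_chi (hcen : ∀ t : ↥T, (∀ b : ↥T, (t : (Module.End K U)ˣ) * b = b * t) →
    IsScal (t : (Module.End K U)ˣ)) {t : ↥T} (h : D.chi t = 1) : IsScal (t : (Module.End K U)ˣ) := by
  apply hcen
  intro b
  have h1 := D.chi_spec t (D.q b)
  rw [h, D.Ad_q, adHom_unit] at h1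
  simp only [MonoidHom.one_apply, Units.val_one, one_smul] at h1
  have h2 := Units.ext h1
  rw [mul_inv_eq_iff_eq_mul] at h2
  exact h2.symm

theorem chi_eq_of_q {a b : ↥T} (h : D.q a = D.q b) : D.chi a = D.chi b := by
  have h1 : D.q (a⁻¹ * b) = 1 := by
    rw [map_mul, map_inv, h, inv_mul_cancel]
  have h2 := D.chi_eq_one_of_scal ((D.q_ker _).mp h1)
  have h3 : b = a * (a⁻¹ * b) := by group
  rw [h3, D.chi_mul, h2]
  ext w
  simp

/-- The pairing on the quotient. -/
noncomputable def kap : W →* (W →* Kˣ) :=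
  D.q.liftOfRightInverse (Function.surjInv D.q_surj) (Function.rightInverse_surjInv _)
    ⟨D.chiHom, by
      intro t ht
      rw [MonoidHom.mem_ker] at ht ⊢
      exact D.chi_eq_one_of_scal ((D.q_ker t).mp ht)⟩

theorem kap_q (t : ↥T) : D.kap (D.q t) = D.chi t := by
  unfold kap
  exact MonoidHom.liftOfRightInverse_comp_apply _ _ _ _ t

theorem kap_alt (w : W) : D.kap w w = 1 := by
  obtain ⟨t, rfl⟩ := D.q_surj w
  rw [kap_q]
  have h1 := D.chi_spec t (D.q t)
  rw [D.Ad_q, adHom_unit] at h1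
  have h2 : ((t : (Module.End K U)ˣ) * t * (t : (Module.End K U)ˣ)⁻¹ : (Module.End K U)ˣ) = t := by group
  rw [h2] at h1
  have h3 : ((1 : K)) • ((t : (Module.End K U)ˣ) : Module.End K U) =
      (((D.chi t (D.q t) : Kˣ) : K)) • ((t : (Module.End K U)ˣ) : Module.End K U) := by
    rw [one_smul]
    exact h1
  have h4 := smul_left_injective K (unit_ne_zero (t : (Module.End K U)ˣ)) h3
  exact Units.ext h4.symm

theorem kap_inj (hcen : ∀ t : ↥T, (∀ b : ↥T, (t : (Module.End K U)ˣ) * b = b * t) →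
    IsScal (t : (Module.End K U)ˣ)) : Function.Injective D.kap := by
  rw [injective_iff_map_eq_one]
  intro w hw
  obtain ⟨t, rfl⟩ := D.q_surj w
  rw [kap_q] at hw
  exact (D.q_ker t).mpr (D.isScal_of_chi hcen hw)

variable [IsAlgClosed K] [Finite W]

theorem chi_surj (hW : (Nat.card W : K) ≠ 0) (hcen : ∀ t : ↥T, (∀ b : ↥T, (t : (Module.End K U)ˣ) * b = b * t) →
    IsScal (t : (Module.End K U)ˣ)) : Function.Surjective D.chi := by
  haveI := enough (K := K) hW
  haveI := finite_dual (K := K) hW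
  have hcard := CommGroup.card_monoidHom_of_hasEnoughRootsOfUnity W K
  have hb : Function.Bijective D.kap :=
    (D.kap_inj hcen).bijective_of_nat_card_le hcard.le
  intro ψ
  obtain ⟨w, rfl⟩ := hb.2 ψ
  obtain ⟨t, rfl⟩ := D.q_surj w
  exact ⟨t, (D.kap_q t).symm⟩

include D in
theorem exists_card_sq (hW : (Nat.card W : K) ≠ 0) (hcen : ∀ t : ↥T, (∀ b : ↥T, (t : (Module.End K U)ˣ) * b = b * t) →
    IsScal (t : (Module.End K U)ˣ)) : ∃ N : ℕ, Nat.card W = N ^ 2 :=
  exists_sq hW D.kap (D.kap_inj hcen) D.kap_alt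

theorem finrank_shift_le [FiniteDimensional K U] (t : ↥T) (μ : W →* Kˣ) :
    finrank K (wsp D.Ad μ) ≤ finrank K (wsp D.Ad (D.chi t * μ)) := by
  let L : wsp D.Ad μ →ₗ[K] wsp D.Ad (D.chi t * μ) :=
    LinearMap.codRestrict _ ((LinearMap.mulLeft K ((t : (Module.End K U)ˣ) : Module.End K U)).comp
      (wsp D.Ad μ).subtype) (by
        rintro ⟨X, hX⟩ w
        obtain ⟨c, rfl⟩ := D.q_surj w
        have h1 := D.chi_spec t (D.q c)
        have h2 := hX (D.q c)
        rw [D.Ad_q] at h1 h2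
        show D.Ad (D.q c) (((t : (Module.End K U)ˣ) : Module.End K U) * X) = _
        rw [D.Ad_q, adHom_mul, h1, h2, smul_mul_smul_comm]
        simp)
  apply LinearMap.finrank_le_finrank_of_injective (f := L)
  rw [injective_iff_map_eq_zero]
  rintro ⟨X, hX⟩ h
  have h1 : ((t : (Module.End K U)ˣ) : Module.End K U) * X = 0 := congrArg Subtype.val h
  apply Subtype.ext
  exact (Units.mul_right_eq_zero _).mp h1

theorem finrank_wsp_eq [FiniteDimensional K U] (hW : (Nat.card W : K) ≠ 0)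
    (hcen : ∀ t : ↥T, (∀ b : ↥T, (t : (Module.End K U)ˣ) * b = b * t) → IsScal (t : (Module.End K U)ˣ))
    (ψ : W →* Kˣ) : finrank K (wsp D.Ad ψ) = finrank K (wsp D.Ad 1) := by
  obtain ⟨t, rfl⟩ := D.chi_surj hW hcen ψ
  apply le_antisymm
  · have h := D.finrank_shift_le t⁻¹ (D.chi t)
    have h2 : D.chi t⁻¹ * D.chi t = 1 := by
      rw [← D.chi_mul, inv_mul_cancel]
      exact D.chi_eq_one_of_scal IsScal.one
    rwa [h2] at h
  · have h := D.finrank_shift_le t 1
    have h2 : D.chi t * 1 = D.chi t := by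
      ext w
      simp
    rwa [h2] at h

theorem wsp_one_eq : wsp D.Ad 1 = commutant T := by
  ext X
  rw [mem_wsp, mem_commutant]
  constructor
  · intro h t ht
    have h1 := h (D.q ⟨t, ht⟩)
    rw [D.Ad_q, adHom_apply] at h1
    simp only [MonoidHom.one_apply, Units.val_one, one_smul] at h1
    calc (t : Module.End K U) * X = ((t : Module.End K U) * X * ((t⁻¹ : (Module.End K U)ˣ) : Module.End K U)) * t := by
          simp [mul_assoc]
      _ = X * t := by rw [h1]
  · intro h w
    obtain ⟨t, rfl⟩ := D.q_surj w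
    rw [D.Ad_q, adHom_apply, h _ t.2]
    simp [mul_assoc]

include D in
theorem finrank_sq_eq [FiniteDimensional K U] (hW : (Nat.card W : K) ≠ 0)
    (hcen : ∀ t : ↥T, (∀ b : ↥T, (t : (Module.End K U)ˣ) * b = b * t) → IsScal (t : (Module.End K U)ˣ)) :
    finrank K U ^ 2 = Nat.card W * finrank K (commutant T) := by
  classical
  haveI := enough (K := K) hW
  haveI := finite_dual (K := K) hW
  haveI := Fintype.ofFinite (W →* Kˣ)
  have hcard := CommGroup.card_monoidHom_of_hasEnoughRootsOfUnity W K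
  have h := finrank_eq_sum (V := Module.End K U) hW D.Ad
  rw [Module.finrank_linearMap] at h
  rw [Finset.sum_congr rfl (fun ψ _ => D.finrank_wsp_eq hW hcen ψ), Finset.sum_const, Finset.card_univ,
    ← Nat.card_eq_fintype_card, hcard, smul_eq_mul, D.wsp_one_eq] at h
  rw [sq, h]

end SympData

end Data

section Data2

variable {K : Type*} [Field K] {U : Type*} [AddCommGroup U] [Module K U]

/-- Conjugation by a normalizing element. -/
def conjT {T : Subgroup (Module.End K U)ˣ} (g : (Module.End K U)ˣ) (hg : ∀ t ∈ T, g * t * g⁻¹ ∈ T) : ↥T →* ↥T where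
  toFun t := ⟨g * t * g⁻¹, hg t t.2⟩
  map_one' := by
    apply Subtype.ext
    simp
  map_mul' := by
    intro a b
    apply Subtype.ext
    simp only [Subgroup.coe_mul]
    group

theorem conjT_coe {T : Subgroup (Module.End K U)ˣ} (g : (Module.End K U)ˣ) (hg : ∀ t ∈ T, g * t * g⁻¹ ∈ T) (t : ↥T) :
    ((conjT g hg t : ↥T) : (Module.End K U)ˣ) = g * t * g⁻¹ := rfl

variable {T : Subgroup (Module.End K U)ˣ} {W : Type*} [CommGroup W] (D : SympData T W)

namespace SympData

/-- The induced map on the quotient. -/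
noncomputable def beta (g : (Module.End K U)ˣ) (hg : ∀ t ∈ T, g * t * g⁻¹ ∈ T) : W →* W :=
  D.q.liftOfRightInverse (Function.surjInv D.q_surj) (Function.rightInverse_surjInv _)
    ⟨D.q.comp (conjT g hg), by
      intro t ht
      rw [MonoidHom.mem_ker] at ht ⊢
      have hs := (D.q_ker t).mp ht
      have h1 : conjT g hg t = t := by
        apply Subtype.ext
        rw [conjT_coe, ← hs.comm g]
        group
      rw [MonoidHom.comp_apply, h1, ht]⟩

theorem beta_q (g : (Module.End K U)ˣ) (hg : ∀ t ∈ T, g * t * g⁻¹ ∈ T) (t : ↥T) :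
    D.beta g hg (D.q t) = D.q (conjT g hg t) := by
  unfold beta
  exact MonoidHom.liftOfRightInverse_comp_apply _ _ _ _ t

theorem Ad_beta (g : (Module.End K U)ˣ) (hg : ∀ t ∈ T, g * t * g⁻¹ ∈ T) (w : W) :
    D.Ad (D.beta g hg w) * adHom g = adHom g * D.Ad w := by
  obtain ⟨t, rfl⟩ := D.q_surj w
  rw [beta_q, D.Ad_q, D.Ad_q, conjT_coe, ← map_mul, ← map_mul]
  congr 1
  group

theorem beta_beta (g : (Module.End K U)ˣ) (hg : ∀ t ∈ T, g * t * g⁻¹ ∈ T)
    (hg' : ∀ t ∈ T, g⁻¹ * t * g⁻¹⁻¹ ∈ T) (w : W) : D.beta g hg (D.beta g⁻¹ hg' w) = w := by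
  obtain ⟨t, rfl⟩ := D.q_surj w
  rw [beta_q, beta_q]
  congr 1
  apply Subtype.ext
  rw [conjT_coe, conjT_coe]
  group

theorem beta_beta' (g : (Module.End K U)ˣ) (hg : ∀ t ∈ T, g * t * g⁻¹ ∈ T)
    (hg' : ∀ t ∈ T, g⁻¹ * t * g⁻¹⁻¹ ∈ T) (w : W) : D.beta g⁻¹ hg' (D.beta g hg w) = w := by
  obtain ⟨t, rfl⟩ := D.q_surj w
  rw [beta_q, beta_q]
  congr 1
  apply Subtype.ext
  rw [conjT_coe, conjT_coe]
  group

/-- The permutation of characters. -/
noncomputable def sigma (g : (Module.End K U)ˣ) (hg : ∀ t ∈ T, g * t * g⁻¹ ∈ T)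
    (hg' : ∀ t ∈ T, g⁻¹ * t * g⁻¹⁻¹ ∈ T) : Equiv.Perm (W →* Kˣ) where
  toFun ψ := ψ.comp (D.beta g⁻¹ hg')
  invFun ψ := ψ.comp (D.beta g hg)
  left_inv ψ := by
    ext w
    simp [D.beta_beta' g hg hg']
  right_inv ψ := by
    ext w
    simp [D.beta_beta g hg hg']

theorem sigma_apply (g : (Module.End K U)ˣ) (hg : ∀ t ∈ T, g * t * g⁻¹ ∈ T)
    (hg' : ∀ t ∈ T, g⁻¹ * t * g⁻¹⁻¹ ∈ T) (ψ : W →* Kˣ) :
    D.sigma g hg hg' ψ = ψ.comp (D.beta g⁻¹ hg') := rfl

theorem eproj_sigma [Fintype W] (g : (Module.End K U)ˣ) (hg : ∀ t ∈ T, g * t * g⁻¹ ∈ T)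
    (hg' : ∀ t ∈ T, g⁻¹ * t * g⁻¹⁻¹ ∈ T) (ψ : W →* Kˣ) :
    eproj D.Ad (D.sigma g hg hg' ψ) * adHom g = adHom g * eproj D.Ad ψ := by
  unfold eproj
  rw [smul_mul_assoc, mul_smul_comm, Finset.sum_mul, Finset.mul_sum]
  congr 1
  let e : W ≃ W :=
    { toFun := D.beta g⁻¹ hg'
      invFun := D.beta g hg
      left_inv := D.beta_beta g hg hg'
      right_inv := D.beta_beta' g hg hg' }
  refine Fintype.sum_equiv e _ _ ?_
  intro w
  have h1 := D.Ad_beta g hg (e w)
  have h2 : D.beta g hg (e w) = w := D.beta_beta g hg hg' w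
  rw [h2] at h1
  rw [smul_mul_assoc, h1, mul_smul_comm, sigma_apply, MonoidHom.comp_apply, map_inv]
  rfl

variable [Nontrivial U]

theorem sigma_chi (g : (Module.End K U)ˣ) (hg : ∀ t ∈ T, g * t * g⁻¹ ∈ T)
    (hg' : ∀ t ∈ T, g⁻¹ * t * g⁻¹⁻¹ ∈ T) (t : ↥T) :
    D.sigma g hg hg' (D.chi t) = D.chi (conjT g hg t) := by
  symm
  apply D.chi_eq_of_mem
  intro w
  have h1 := D.Ad_beta g hg (D.beta g⁻¹ hg' w)
  rw [D.beta_beta g hg hg'] at h1
  have h2 := congrArg (fun f : Module.End K (Module.End K U) => f ((t : (Module.End K U)ˣ) : Module.End K U)) h1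
  simp only [Module.End.mul_apply] at h2
  rw [adHom_unit, D.chi_spec t _, map_smul, adHom_unit] at h2
  rw [conjT_coe, h2]
  rfl

theorem sigma_pow_chi (g : (Module.End K U)ˣ) (hg : ∀ t ∈ T, g * t * g⁻¹ ∈ T)
    (hg' : ∀ t ∈ T, g⁻¹ * t * g⁻¹⁻¹ ∈ T) (k : ℕ) (t : ↥T) :
    ∃ t' : ↥T, (t' : (Module.End K U)ˣ) = g ^ k * t * (g ^ k)⁻¹ ∧
      (D.sigma g hg hg' ^ k) (D.chi t) = D.chi t' := by
  induction k with
  | zero => exact ⟨t, by simp, by simp⟩
  | succ k ih =>
    obtain ⟨t', h1, h2⟩ := ih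
    refine ⟨conjT g hg t', ?_, ?_⟩
    · rw [conjT_coe, h1]
      group
    · rw [pow_succ', Equiv.Perm.mul_apply, h2, sigma_chi]

variable [IsAlgClosed K] [Finite W]

include D in
theorem fix_bound [FiniteDimensional K U] (hW : (Nat.card W : K) ≠ 0)
    (hcen : ∀ t : ↥T, (∀ b : ↥T, (t : (Module.End K U)ˣ) * b = b * t) → IsScal (t : (Module.End K U)ˣ))
    (g : (Module.End K U)ˣ) (hg : ∀ t ∈ T, g * t * g⁻¹ ∈ T)
    (hg' : ∀ t ∈ T, g⁻¹ * t * g⁻¹⁻¹ ∈ T) (d : ℕ)
    (hd : ∀ t : ↥T, ¬ IsScal (t : (Module.End K U)ˣ) → ∀ k : ℕ, 0 < k →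
      IsScal (g ^ k * (t : (Module.End K U)ˣ) * (g ^ k)⁻¹ * (t : (Module.End K U)ˣ)⁻¹) → d ∣ k) :
    ∃ r : ℕ, finrank K (fixAd g) ≤ finrank K (commutant T) * r ∧ d * (r - 1) + 1 ≤ Nat.card W ∧
      (0 < d → g ^ d = 1 → d * (r - 1) + 1 = Nat.card W) := by
  classical
  haveI := Fintype.ofFinite W
  haveI := enough (K := K) hW
  haveI := finite_dual (K := K) hW
  haveI := Fintype.ofFinite (W →* Kˣ)
  have hcard := CommGroup.card_monoidHom_of_hasEnoughRootsOfUnity W K
  have hcard' : Fintype.card (W →* Kˣ) = Nat.card W := by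
    rw [← Nat.card_eq_fintype_card, hcard]
  let σ := D.sigma g hg hg'
  have hσ1 : σ 1 = 1 := by
    ext w
    simp [σ, sigma_apply]
  have hd' : ∀ i : W →* Kˣ, i ≠ 1 → ∀ k : ℕ, 0 < k → (σ ^ k) i = i → d ∣ k := by
    intro i hi k hk hfix
    obtain ⟨t, rfl⟩ := D.chi_surj hW hcen i
    have hns : ¬ IsScal (t : (Module.End K U)ˣ) := fun h => hi (D.chi_eq_one_of_scal h)
    obtain ⟨t', h1, h2⟩ := D.sigma_pow_chi g hg hg' k t
    apply hd t hns k hk
    rw [← h1]
    have h3 : D.chi (t' * t⁻¹) = 1 := by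
      rw [D.chi_mul, ← h2]
      have h4 : (D.sigma g hg hg' ^ k) (D.chi t) = D.chi t := hfix
      rw [h4]
      rw [← D.chi_mul, mul_inv_cancel]
      exact D.chi_eq_one_of_scal IsScal.one
    have := D.isScal_of_chi hcen h3
    simpa using this
  obtain ⟨R, _, hR, h1, h2⟩ := exists_reps σ 1 hσ1 d hd'
  refine ⟨R.card, ?_, ?_, ?_⟩
  · have h3 := finrank_fix_le (eproj D.Ad) (sum_eproj hW D.Ad) (adHom g) σ
      (fun i => D.eproj_sigma g hg hg' i) R hR
    refine h3.trans ?_
    have h4 : ∀ r ∈ R, finrank K (LinearMap.range (eproj D.Ad r)) ≤ finrank K (commutant T) := by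
      intro r _
      rw [← D.wsp_one_eq, ← D.finrank_wsp_eq hW hcen r]
      apply Submodule.finrank_mono
      rintro _ ⟨v, rfl⟩
      exact eproj_mem D.Ad r v
    calc ∑ r ∈ R, finrank K (LinearMap.range (eproj D.Ad r))
        ≤ ∑ r ∈ R, finrank K (commutant T) := Finset.sum_le_sum h4
      _ = finrank K (commutant T) * R.card := by
          rw [Finset.sum_const, smul_eq_mul, mul_comm]
  · rwa [hcard'] at h1
  · intro hdpos hgd
    have h3 := h2 hdpos (by
      intro i
      obtain ⟨t, rfl⟩ := D.chi_surj hW hcen i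
      obtain ⟨t', h4, h5⟩ := D.sigma_pow_chi g hg hg' d t
      have h6 : t' = t := by
        apply Subtype.ext
        rw [h4, hgd]
        simp
      show (D.sigma g hg hg' ^ d) (D.chi t) = D.chi t
      rw [h5, h6])
    rwa [hcard'] at h3

end SympData

/-- The main package. -/
theorem symp_package [IsAlgClosed K] [FiniteDimensional K U] [Nontrivial U]
    (T : Subgroup (Module.End K U)ˣ) [Finite T] (hT : (Nat.card T : K) ≠ 0)
    (hcomm : ∀ a ∈ T, ∀ b ∈ T, IsScal (a * b * a⁻¹ * b⁻¹))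
    (hcen : ∀ t ∈ T, (∀ b ∈ T, t * b = b * t) → IsScal t) :
    ∃ N : ℕ, N ^ 2 ∣ Nat.card T ∧ finrank K U ^ 2 = N ^ 2 * finrank K (commutant T) ∧
      ((∃ t ∈ T, ¬ IsScal t) → 1 < N) ∧
      ∀ (g : (Module.End K U)ˣ) (hg : ∀ t ∈ T, g * t * g⁻¹ ∈ T)
        (hg' : ∀ t ∈ T, g⁻¹ * t * g⁻¹⁻¹ ∈ T) (d : ℕ)
        (hd : ∀ t ∈ T, ¬ IsScal t → ∀ k : ℕ, 0 < k → IsScal (g ^ k * t * (g ^ k)⁻¹ * t⁻¹) → d ∣ k),
        ∃ r : ℕ, finrank K (fixAd g) ≤ finrank K (commutant T) * r ∧ d * (r - 1) + 1 ≤ N ^ 2 ∧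
          (0 < d → g ^ d = 1 → d * (r - 1) + 1 = N ^ 2) := by
  classical
  let Sc : Subgroup ↥T :=
    { carrier := {t | IsScal (t : (Module.End K U)ˣ)}
      one_mem' := IsScal.one
      mul_mem' := fun ha hb => IsScal.mul ha hb
      inv_mem' := fun ha => IsScal.inv ha }
  have hSc : ∀ t : ↥T, t ∈ Sc ↔ IsScal (t : (Module.End K U)ˣ) := fun t => Iff.rfl
  haveI hSn : Sc.Normal := by
    constructor
    intro n hn g
    have h1 : g * n * g⁻¹ = n := by
      apply Subtype.ext
      have h2 : (n : (Module.End K U)ˣ) * g = g * n := IsScal.comm hn _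
      simp only [Subgroup.coe_mul, Subgroup.coe_inv]
      rw [← h2]
      group
    rw [h1]
    exact hn
  letI : CommGroup (↥T ⧸ Sc) :=
    { (QuotientGroup.Quotient.group Sc) with
      mul_comm := by
        intro a b
        induction a using QuotientGroup.induction_on with
        | H a =>
        induction b using QuotientGroup.induction_on with
        | H b =>
        rw [← QuotientGroup.mk_mul, ← QuotientGroup.mk_mul, QuotientGroup.eq]
        rw [hSc]
        have := hcomm _ (inv_mem b.2) _ (inv_mem a.2)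
        simpa [mul_assoc] using this }
  let D : SympData T (↥T ⧸ Sc) :=
    { q := QuotientGroup.mk' Sc
      q_surj := QuotientGroup.mk'_surjective Sc
      q_ker := by
        intro t
        rw [QuotientGroup.mk'_apply, QuotientGroup.eq_one_iff, hSc]
      Ad := QuotientGroup.lift Sc (adHom.comp T.subtype) (by
        intro t ht
        ext X u
        have h1 : IsScal (t : (Module.End K U)ˣ) := ht
        have h2 : adHom (t : (Module.End K U)ˣ) X = X := by
          obtain ⟨c, hc⟩ := h1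
          have h3 : ((t : (Module.End K U)ˣ) : Module.End K U) * X = X * (t : (Module.End K U)ˣ) := by
            rw [hc]
            simp
          rw [adHom_apply, h3, mul_assoc, Units.mul_inv, mul_one]
        simp [h2])
      Ad_q := by
        intro t
        rfl }
  have hcen' : ∀ t : ↥T, (∀ b : ↥T, (t : (Module.End K U)ˣ) * b = b * t) → IsScal (t : (Module.End K U)ˣ) := by
    intro t ht
    exact hcen t t.2 (fun b hb => ht ⟨b, hb⟩)
  have hdvd : Nat.card (↥T ⧸ Sc) ∣ Nat.card T := by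
    rw [← Subgroup.index_eq_card]
    exact Subgroup.index_dvd_card Sc
  have hW : (Nat.card (↥T ⧸ Sc) : K) ≠ 0 := by
    obtain ⟨c, hc⟩ := hdvd
    intro h
    apply hT
    rw [hc]
    simp [h]
  obtain ⟨N, hN⟩ := D.exists_card_sq hW hcen'
  refine ⟨N, ?_, ?_, ?_, ?_⟩
  · rw [← hN]
    exact hdvd
  · rw [← hN]
    exact D.finrank_sq_eq hW hcen'
  · rintro ⟨t, ht, hns⟩
    by_contra hle
    have h1 : Nat.card (↥T ⧸ Sc) ≤ 1 := by
      rw [hN]
      have : N ≤ 1 := not_lt.mp hle
      calc N ^ 2 ≤ 1 ^ 2 := Nat.pow_le_pow_left this 2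
        _ = 1 := by norm_num
    haveI : Subsingleton (↥T ⧸ Sc) := (Finite.card_le_one_iff_subsingleton).mp h1
    apply hns
    have h2 : ((⟨t, ht⟩ : ↥T) : ↥T ⧸ Sc) = 1 := Subsingleton.elim _ _
    exact (QuotientGroup.eq_one_iff _).mp h2
  · intro g hg hg' d hd
    obtain ⟨r, h1, h2, h3⟩ := D.fix_bound hW hcen' g hg hg' d (fun t hns k hk h => hd t t.2 hns k hk h)
    refine ⟨r, h1, ?_, ?_⟩
    · rwa [hN] at h2
    · rwa [hN] at h3

end Data2

end Cfsg.Agent.Lib.BGSymp
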