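import Mathlib
import Cfsg.Agent.Lib.BGSymp
import Cfsg.Agent.Lib.BGCen

/-!
# Eigenvalue multiplicities of elements normalizing a group with scalar commutators
-/

set_option autoImplicit false
set_option linter.unusedSectionVars false
set_option linter.unusedVariables false
set_option linter.style.haveILetI false
set_option linter.unusedSimpArgs false
set_option linter.unusedDecidableInType false
set_option linter.unusedFintypeInType false

namespace Cfsg.Agent.Lib.BGHH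

open Module Cfsg.Agent.Lib.BGWeight Cfsg.Agent.Lib.BGSymp Cfsg.Agent.Lib.BGCen

section Arith

/-- The arithmetic core. -/
theorem arith_main (s N M r x D : ℤ) (hs : 1 ≤ s) (hM : 0 ≤ M) (hD : D = M * N) (hr : s * r = N ^ 2 + s - 1)
    (h : (D - x) ^ 2 ≤ (s - 1) * (M ^ 2 * r - x ^ 2)) : D - s * x ≤ (s - 1) * M := by
  have h1 : s * (D - x) ^ 2 ≤ (s - 1) * (M ^ 2 * (s * r) - s * x ^ 2) := by
    have := mul_le_mul_of_nonneg_left h (by linarith : (0 : ℤ) ≤ s)
    calc s * (D - x) ^ 2 ≤ s * ((s - 1) * (M ^ 2 * r - x ^ 2)) := this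
      _ = (s - 1) * (M ^ 2 * (s * r) - s * x ^ 2) := by ring
  rw [hr] at h1
  have h2 : (D - s * x) ^ 2 ≤ ((s - 1) * M) ^ 2 := by
    have e : (s - 1) * (M ^ 2 * (N ^ 2 + s - 1) - s * x ^ 2) =
        (s - 1) * D ^ 2 + ((s - 1) * M) ^ 2 - (s - 1) * s * x ^ 2 := by
      rw [hD]
      ring
    rw [e] at h1
    nlinarith [h1]
  have h3 : 0 ≤ (s - 1) * M := mul_nonneg (by linarith) hM
  exact abs_le_of_sq_le_sq' h2 h3 |>.2

/-- An odd `N > 1` with `s ∣ N ^ 2 - 1`, `s` an odd prime, satisfies `2 * s ≤ N + 1`. -/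
theorem two_mul_le (s N : ℕ) (hs : s.Prime) (hso : Odd s) (hN : Odd N) (hN1 : 1 < N) (hdvd : s ∣ N ^ 2 - 1) :
    2 * s ≤ N + 1 := by
  have h1 : N ^ 2 - 1 = (N - 1) * (N + 1) := by
    obtain ⟨m, rfl⟩ : ∃ m, N = m + 1 := ⟨N - 1, by omega⟩
    simp only [Nat.add_sub_cancel]
    have : (m + 1) ^ 2 = m * (m + 1 + 1) + 1 := by ring
    omega
  rw [h1] at hdvd
  have hco2 : Nat.Coprime s 2 := by
    rw [Nat.coprime_comm]
    exact (Nat.coprime_two_left).mpr hso
  have heven1 : 2 ∣ N + 1 := (hN.add_one).two_dvd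
  have heven2 : 2 ∣ N - 1 := by
    obtain ⟨m, hm⟩ := hN
    exact ⟨m, by omega⟩
  rcases (Nat.Prime.dvd_mul hs).mp hdvd with h | h
  · have h2 : 2 * s ∣ N - 1 := (Nat.Coprime.mul_dvd_of_dvd_of_dvd hco2.symm heven2 h)
    have := Nat.le_of_dvd (by omega) h2
    omega
  · have h2 : 2 * s ∣ N + 1 := (Nat.Coprime.mul_dvd_of_dvd_of_dvd hco2.symm heven1 h)
    exact Nat.le_of_dvd (by omega) h2

end Arith

section Cen'

variable {K : Type*} [Field K] {U : Type*} [AddCommGroup U] [Module K U]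

theorem fixAd_eq_commOf (g : (Module.End K U)ˣ) : fixAd g = commOf (g : Module.End K U) := by
  ext X
  rw [mem_fixAd, mem_commOf]

theorem finrank_le_fixAd [IsAlgClosed K] [FiniteDimensional K U] (g : (Module.End K U)ˣ) :
    finrank K U ≤ finrank K (fixAd g) := by
  rw [fixAd_eq_commOf]
  exact finrank_le_comm _

end Cen'

section Eigen

variable {K : Type*} [Field K] [IsAlgClosed K] {U : Type*} [AddCommGroup U] [Module K U]
  [FiniteDimensional K U]

/-- The inequality between the dimension of the fixed space and of the centralizer algebra. -/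
theorem eigen_ineq (y : (Module.End K U)ˣ) (s : ℕ) (hs : s.Prime) (hsK : (s : K) ≠ 0) (hys : y ^ s = 1) :
    ((finrank K U : ℤ) - finrank K (LinearMap.ker ((y : Module.End K U) - 1))) ^ 2 ≤
      ((s : ℤ) - 1) * ((finrank K (fixAd y) : ℤ) - (finrank K (LinearMap.ker ((y : Module.End K U) - 1)) : ℤ) ^ 2) := by
  classical
  have hord : orderOf y ∣ s := orderOf_dvd_of_pow_eq_one hys
  have hfin : IsOfFinOrder y := isOfFinOrder_iff_pow_eq_one.mpr ⟨s, hs.pos, hys⟩
  haveI : Finite (Subgroup.zpowers y) := (finite_zpowers.mpr hfin).to_subtype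
  letI : CommGroup (Subgroup.zpowers y) := IsCyclic.commGroup
  let ρ : (Subgroup.zpowers y) →* Module.End K U := (Units.coeHom _).comp (Subgroup.zpowers y).subtype
  have hcW : Nat.card (Subgroup.zpowers y) = orderOf y := Nat.card_zpowers y
  have hW : (Nat.card (Subgroup.zpowers y) : K) ≠ 0 := by
    rw [hcW]
    rcases (Nat.dvd_prime hs).mp hord with h | h
    · rw [h]
      simp
    · rwa [h]
  haveI := enough (K := K) hW
  haveI := finite_dual (K := K) hW
  haveI := Fintype.ofFinite (Subgroup.zpowers y →* Kˣ)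
  have hcard := CommGroup.card_monoidHom_of_hasEnoughRootsOfUnity (Subgroup.zpowers y) K
  have hsum := finrank_eq_sum hW ρ
  have hsq := sum_sq_le_commutant hW ρ (fixAd y) (by
    intro X hX
    rw [mem_fixAd]
    exact hX ⟨y, Subgroup.mem_zpowers y⟩)
  have hone : wsp ρ 1 = LinearMap.ker ((y : Module.End K U) - 1) := by
    ext v
    rw [mem_wsp, LinearMap.mem_ker, LinearMap.sub_apply, sub_eq_zero]
    constructor
    · intro h
      have := h ⟨y, Subgroup.mem_zpowers y⟩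
      simpa [ρ] using this
    · intro h w
      obtain ⟨w, hw⟩ := w
      obtain ⟨n, rfl⟩ := Submonoid.mem_powers_iff _ _ |>.mp (hfin.mem_powers_iff_mem_zpowers.mpr hw)
      have hz : ∀ n : ℕ, ((y ^ n : (Module.End K U)ˣ) : Module.End K U) v = v := by
        intro n
        induction n with
        | zero => simp
        | succ n ih =>
          have h' : (y : Module.End K U) v = v := h
          rw [pow_succ, Units.val_mul, Module.End.mul_apply, h', ih]
      simpa [ρ] using hz n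
  rw [hone.symm]
  obtain ⟨f, hf⟩ : ∃ f : (Subgroup.zpowers y →* Kˣ) → ℤ, ∀ ψ, f ψ = finrank K (wsp ρ ψ) := ⟨_, fun _ => rfl⟩
  have h1 : (finrank K U : ℤ) = f 1 + ∑ ψ ∈ Finset.univ.erase 1, f ψ := by
    rw [Finset.add_sum_erase _ _ (Finset.mem_univ _), hsum]
    push_cast
    exact Finset.sum_congr rfl (fun ψ _ => (hf ψ).symm)
  have h2 : f 1 ^ 2 + ∑ ψ ∈ Finset.univ.erase 1, f ψ ^ 2 ≤ finrank K (fixAd y) := by
    rw [Finset.add_sum_erase _ (fun ψ => f ψ ^ 2) (Finset.mem_univ _)]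
    have : ((∑ ψ : Subgroup.zpowers y →* Kˣ, (finrank K (wsp ρ ψ)) ^ 2 : ℕ) : ℤ) ≤ (finrank K (fixAd y) : ℤ) := by
      exact_mod_cast hsq
    push_cast at this
    refine le_trans (le_of_eq ?_) this
    exact Finset.sum_congr rfl (fun ψ _ => by rw [hf])
  have h3 : (∑ ψ ∈ Finset.univ.erase 1, f ψ) ^ 2 ≤
      ((Finset.univ.erase (1 : Subgroup.zpowers y →* Kˣ)).card : ℤ) * ∑ ψ ∈ Finset.univ.erase 1, f ψ ^ 2 :=
    sq_sum_le_card_mul_sum_sq
  have h4 : (((Finset.univ.erase (1 : Subgroup.zpowers y →* Kˣ)).card : ℕ) : ℤ) ≤ (s : ℤ) - 1 := by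
    have h5 : (Finset.univ.erase (1 : Subgroup.zpowers y →* Kˣ)).card + 1 ≤ s := by
      rw [Finset.card_erase_of_mem (Finset.mem_univ _), Finset.card_univ, ← Nat.card_eq_fintype_card, hcard, hcW]
      have h6 : orderOf y ≤ s := Nat.le_of_dvd hs.pos hord
      have h7 : 0 < orderOf y := hfin.orderOf_pos
      omega
    have h6 : ((Finset.univ.erase (1 : Subgroup.zpowers y →* Kˣ)).card : ℤ) + 1 ≤ (s : ℤ) := by
      exact_mod_cast h5
    linarith
  have h5 : 0 ≤ ∑ ψ ∈ Finset.univ.erase (1 : Subgroup.zpowers y →* Kˣ), f ψ ^ 2 :=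
    Finset.sum_nonneg (fun ψ _ => sq_nonneg _)
  have h6 : ((finrank K U : ℤ) - (finrank K (wsp ρ 1) : ℤ)) = ∑ ψ ∈ Finset.univ.erase 1, f ψ := by
    rw [h1, hf]
    ring
  have h7 : (finrank K (wsp ρ 1) : ℤ) = f 1 := (hf 1).symm
  rw [h6, h7]
  calc (∑ ψ ∈ Finset.univ.erase 1, f ψ) ^ 2 ≤
      ((Finset.univ.erase (1 : Subgroup.zpowers y →* Kˣ)).card : ℤ) * ∑ ψ ∈ Finset.univ.erase 1, f ψ ^ 2 := h3
    _ ≤ ((s : ℤ) - 1) * ∑ ψ ∈ Finset.univ.erase 1, f ψ ^ 2 := mul_le_mul_of_nonneg_right h4 h5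
    _ ≤ ((s : ℤ) - 1) * ((finrank K (fixAd y) : ℤ) - f 1 ^ 2) := by
        apply mul_le_mul_of_nonneg_left
        · linarith
        · have : (1 : ℤ) ≤ s := by exact_mod_cast hs.one_le
          linarith

end Eigen

section Main

variable {K : Type*} [Field K] {U : Type*} [AddCommGroup U] [Module K U]

theorem IsScal.conj {a : (Module.End K U)ˣ} (ha : IsScal a) (b : (Module.End K U)ˣ) : IsScal (b * a * b⁻¹) := by
  have : b * a * b⁻¹ = a := by
    rw [← ha.comm b]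
    group
  rwa [this]

theorem scal_pow (h t : (Module.End K U)ˣ) (hs : IsScal (h * t * h⁻¹ * t⁻¹)) (j : ℕ) :
    IsScal (h ^ j * t * (h ^ j)⁻¹ * t⁻¹) := by
  induction j with
  | zero => simpa using IsScal.one
  | succ j ih =>
    have e : h ^ (j + 1) * t * (h ^ (j + 1))⁻¹ * t⁻¹ = (h * (h ^ j * t * (h ^ j)⁻¹ * t⁻¹) * h⁻¹) * (h * t * h⁻¹ * t⁻¹) := by
      rw [pow_succ']
      group
    rw [e]
    exact (IsScal.conj ih h).mul hs

theorem not_coprime_of_scal (h t : (Module.End K U)ˣ) (n : ℕ) (hn0 : 0 < n) (hn : h ^ n = 1)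
    (hnot : ¬ IsScal (h * t * h⁻¹ * t⁻¹)) (k : ℕ) (hk : IsScal (h ^ k * t * (h ^ k)⁻¹ * t⁻¹)) :
    ¬ Nat.Coprime k n := by
  intro hc
  rcases Nat.lt_or_ge 1 n with h1 | h1
  · obtain ⟨j, _, hj⟩ := Nat.exists_mul_mod_eq_one_of_coprime hc h1
    have h2 : (h ^ k) ^ j = h := by
      rw [← pow_mul]
      conv_rhs => rw [← pow_one h]
      rw [pow_eq_pow_mod (k * j) hn, hj]
    have h3 := scal_pow (h ^ k) t (by simpa using hk) j
    rw [h2] at h3
    exact hnot h3
  · have h2 : n = 1 := by omega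
    subst h2
    apply hnot
    have : h = 1 := by simpa using hn
    subst this
    simpa using IsScal.one

theorem conj_pow_mem {T : Subgroup (Module.End K U)ˣ} (g : (Module.End K U)ˣ)
    (hg : ∀ t ∈ T, g * t * g⁻¹ ∈ T) (k : ℕ) : ∀ t ∈ T, g ^ k * t * (g ^ k)⁻¹ ∈ T := by
  induction k with
  | zero => intro t ht; simpa using ht
  | succ k ih =>
    intro t ht
    have : g ^ (k + 1) * t * (g ^ (k + 1))⁻¹ = g * (g ^ k * t * (g ^ k)⁻¹) * g⁻¹ := by
      rw [pow_succ']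
      group
    rw [this]
    exact hg _ (ih t ht)

theorem inv_conj_mem {T : Subgroup (Module.End K U)ˣ} (g : (Module.End K U)ˣ)
    (hg : ∀ t ∈ T, g * t * g⁻¹ ∈ T) (n : ℕ) (hn0 : 0 < n) (hn : g ^ n = 1) :
    ∀ t ∈ T, g⁻¹ * t * g⁻¹⁻¹ ∈ T := by
  intro t ht
  have h1 : g⁻¹ = g ^ (n - 1) := by
    rw [inv_eq_iff_mul_eq_one, ← pow_succ', Nat.sub_add_cancel hn0, hn]
  have h2 := conj_pow_mem g hg (n - 1) t ht
  rw [← h1] at h2
  exact h2

variable [IsAlgClosed K] [FiniteDimensional K U]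

theorem nontrivial_of_ns {t : (Module.End K U)ˣ} (h : ¬ IsScal t) : Nontrivial U := by
  by_contra hU
  rw [not_nontrivial_iff_subsingleton] at hU
  apply h
  refine ⟨0, ?_⟩
  apply LinearMap.ext
  intro u
  exact Subsingleton.elim _ _

/-- Multiplicity bounds for an element of prime order. -/
theorem t3 (T : Subgroup (Module.End K U)ˣ) [Finite T] {q : ℕ} (hq : q.Prime) (hqo : Odd q) (hT : IsPGroup q T)
    (hqK : (q : K) ≠ 0)
    (hcomm : ∀ a ∈ T, ∀ b ∈ T, IsScal (a * b * a⁻¹ * b⁻¹))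
    (hcen : ∀ t ∈ T, (∀ b ∈ T, t * b = b * t) → IsScal t)
    (hns : ∃ t ∈ T, ¬ IsScal t)
    (y : (Module.End K U)ˣ) (hyT : ∀ t ∈ T, y * t * y⁻¹ ∈ T) {s : ℕ} (hs : s.Prime) (hso : Odd s) (hsK : (s : K) ≠ 0)
    (hys : y ^ s = 1) (hfp : ∀ t ∈ T, ¬ IsScal t → ¬ IsScal (y * t * y⁻¹ * t⁻¹)) :
    1 ≤ finrank K (LinearMap.ker ((y : Module.End K U) - 1)) ∧
      (finrank K (LinearMap.ker ((y : Module.End K U) - 1)) ≤ 1 →
        finrank K (commutant T) = 1 ∧ finrank K U + 1 ≤ 2 * s) := by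
  obtain ⟨t₀, ht₀, hns₀⟩ := hns
  haveI : Nontrivial U := nontrivial_of_ns hns₀
  haveI : Fact q.Prime := ⟨hq⟩
  obtain ⟨n, hn⟩ := IsPGroup.iff_card.mp hT
  have hT0 : (Nat.card T : K) ≠ 0 := by
    rw [hn]
    push_cast
    exact pow_ne_zero _ hqK
  obtain ⟨N, hN1, hN2, hN3, hN4⟩ := symp_package T hT0 hcomm hcen
  have hN1' : 1 < N := hN3 ⟨t₀, ht₀, hns₀⟩
  have hNodd : Odd N := by
    have h1 : Odd (Nat.card T) := by
      rw [hn]
      exact hqo.pow
    have h2 : N ∣ Nat.card T := Dvd.dvd.trans (Dvd.intro_left (N ^ 1) (by ring)) hN1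
    exact Odd.of_dvd_nat h1 h2
  have hd : ∀ t ∈ T, ¬ IsScal t → ∀ k : ℕ, 0 < k → IsScal (y ^ k * t * (y ^ k)⁻¹ * t⁻¹) → s ∣ k := by
    intro t ht hnst k hk h
    have := not_coprime_of_scal y t s hs.pos hys (hfp t ht hnst) k h
    by_contra hdvd
    exact this ((Nat.Prime.coprime_iff_not_dvd hs).mpr hdvd).symm
  obtain ⟨r, hF, -, hr⟩ := hN4 y hyT (inv_conj_mem y hyT s hs.pos hys) s hd
  have hr' := hr hs.pos hys
  have hdvd : s ∣ N ^ 2 - 1 := ⟨r - 1, by omega⟩
  have h2s := two_mul_le s N hs hso hNodd hN1' hdvd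
  have hND : N ∣ finrank K U := by
    rw [← Nat.pow_dvd_pow_iff (two_ne_zero)]
    exact ⟨_, hN2⟩
  obtain ⟨M, hM⟩ := hND
  have hN0 : 0 < N := by omega
  have he : finrank K (commutant T) = M ^ 2 := by
    have : N ^ 2 * finrank K (commutant T) = N ^ 2 * M ^ 2 := by
      rw [← hN2, hM]
      ring
    exact Nat.eq_of_mul_eq_mul_left (by positivity) this
  have hDpos : 0 < finrank K U := Module.finrank_pos
  have hMpos : 1 ≤ M := by
    rcases Nat.eq_zero_or_pos M with h | h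
    · subst h
      omega
    · exact h
  have hrpos : 1 ≤ r := by
    by_contra h
    have h0 : r = 0 := by omega
    subst h0
    simp at hr'
    nlinarith
  obtain ⟨r', rfl⟩ : ∃ r', r = r' + 1 := ⟨r - 1, by omega⟩
  simp only [Nat.add_sub_cancel] at hr'
  have hin := eigen_ineq y s hs hsK hys
  set x := finrank K (LinearMap.ker ((y : Module.End K U) - 1)) with hx
  have hsZ : (1 : ℤ) ≤ s := by exact_mod_cast hs.one_le
  have hF' : (finrank K (fixAd y) : ℤ) ≤ (M : ℤ) ^ 2 * ((r' : ℤ) + 1) := by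
    rw [he] at hF
    exact_mod_cast hF
  have hmain := arith_main (s : ℤ) (N : ℤ) (M : ℤ) ((r' : ℤ) + 1) (x : ℤ) (finrank K U : ℤ) hsZ (by positivity)
    (by rw [hM]; push_cast; ring)
    (by
      have : (s : ℤ) * r' + 1 = (N : ℤ) ^ 2 := by exact_mod_cast hr'
      linarith)
    (by
      refine hin.trans ?_
      apply mul_le_mul_of_nonneg_left
      · linarith
      · linarith)
  have hD' : (finrank K U : ℤ) = N * M := by
    rw [hM]
    push_cast
    ring
  rw [hD'] at hmain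
  have h2s' : 2 * (s : ℤ) ≤ N + 1 := by exact_mod_cast h2s
  have hsx : (M : ℤ) ≤ x := by
    have hMZ : (1 : ℤ) ≤ M := by exact_mod_cast hMpos
    have hs0 : (0 : ℤ) < s := by linarith
    by_contra hlt
    push Not at hlt
    nlinarith
  have hMx : M ≤ x := by exact_mod_cast hsx
  refine ⟨hMpos.trans hMx, ?_⟩
  intro hx1
  have hM1 : M = 1 := by omega
  subst hM1
  have hx' : (x : ℤ) ≤ 1 := by exact_mod_cast hx1
  refine ⟨by rw [he]; norm_num, ?_⟩
  rw [hM, mul_one]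
  have : (N : ℤ) + 1 ≤ 2 * s := by
    have hs0 : (0 : ℤ) < s := by linarith
    nlinarith
  exact_mod_cast this

/-- With a second commuting automorphism the multiplicity at one is at least two. -/
theorem t4 (T : Subgroup (Module.End K U)ˣ) [Finite T] {q : ℕ} (hq : q.Prime) (hqo : Odd q) (hT : IsPGroup q T)
    (hqK : (q : K) ≠ 0)
    (hcomm : ∀ a ∈ T, ∀ b ∈ T, IsScal (a * b * a⁻¹ * b⁻¹))
    (hcen : ∀ t ∈ T, (∀ b ∈ T, t * b = b * t) → IsScal t)
    (hns : ∃ t ∈ T, ¬ IsScal t)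
    (y : (Module.End K U)ˣ) (hyT : ∀ t ∈ T, y * t * y⁻¹ ∈ T) {s : ℕ} (hs : s.Prime) (hso : Odd s) (hsK : (s : K) ≠ 0)
    (hys : y ^ s = 1) (hfp : ∀ t ∈ T, ¬ IsScal t → ¬ IsScal (y * t * y⁻¹ * t⁻¹))
    (x : (Module.End K U)ˣ) (hxT : ∀ t ∈ T, x * t * x⁻¹ ∈ T) {p a : ℕ} (hp : p.Prime) (hpo : Odd p) (hps : p ≠ s)
    (hxp : x ^ (p ^ a) = 1) (hxy : x * y = y * x) (hfx : ∀ t ∈ T, ¬ IsScal t → ¬ IsScal (x * t * x⁻¹ * t⁻¹)) :
    2 ≤ finrank K (LinearMap.ker ((y : Module.End K U) - 1)) := by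
  by_contra hlt
  have hle : finrank K (LinearMap.ker ((y : Module.End K U) - 1)) ≤ 1 := by omega
  obtain ⟨he, h2s⟩ := (t3 T hq hqo hT hqK hcomm hcen hns y hyT hs hso hsK hys hfp).2 hle
  obtain ⟨t₀, ht₀, hns₀⟩ := hns
  haveI : Nontrivial U := nontrivial_of_ns hns₀
  haveI : Fact q.Prime := ⟨hq⟩
  obtain ⟨n, hn⟩ := IsPGroup.iff_card.mp hT
  have hT0 : (Nat.card T : K) ≠ 0 := by
    rw [hn]
    push_cast
    exact pow_ne_zero _ hqK
  obtain ⟨N, hN1, hN2, hN3, hN4⟩ := symp_package T hT0 hcomm hcen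
  have hN1' : 1 < N := hN3 ⟨t₀, ht₀, hns₀⟩
  rw [he, mul_one] at hN2
  have hDN : finrank K U = N := by
    exact Nat.pow_left_injective (n := 2) (by norm_num) hN2
  have hcxy : Commute x y := hxy
  have hgn : (x * y) ^ (p ^ a * s) = 1 := by
    rw [hcxy.mul_pow, pow_mul, hxp, one_pow, one_mul, mul_comm, pow_mul, hys, one_pow]
  have hgT : ∀ t ∈ T, (x * y) * t * (x * y)⁻¹ ∈ T := by
    intro t ht
    have := hxT _ (hyT t ht)
    have e : (x * y) * t * (x * y)⁻¹ = x * (y * t * y⁻¹) * x⁻¹ := by group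
    rwa [e]
  have hd : ∀ t ∈ T, ¬ IsScal t → ∀ k : ℕ, 0 < k → IsScal ((x * y) ^ k * t * ((x * y) ^ k)⁻¹ * t⁻¹) → p * s ∣ k := by
    intro t ht hnst k hk h
    have h1 : s ∣ k := by
      have h2 := scal_pow ((x * y) ^ k) t (by simpa using h) (p ^ a)
      have h3 : ((x * y) ^ k) ^ (p ^ a) = y ^ (k * p ^ a) := by
        rw [← pow_mul, hcxy.mul_pow, mul_comm k, pow_mul x, hxp, one_pow, one_mul]
      rw [h3] at h2
      have h4 := not_coprime_of_scal y t s hs.pos hys (hfp t ht hnst) (k * p ^ a) h2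
      by_contra hdvd
      apply h4
      have h5 : Nat.Coprime s k := (Nat.Prime.coprime_iff_not_dvd hs).mpr hdvd
      have h6 : Nat.Coprime s (p ^ a) :=
        Nat.Coprime.pow_right a ((Nat.coprime_primes hs hp).mpr hps.symm)
      exact (Nat.Coprime.mul_right h5 h6).symm
    have h2 : p ∣ k := by
      have hyk : y ^ k = 1 := by
        obtain ⟨c, rfl⟩ := h1
        rw [pow_mul, hys, one_pow]
      have h3 : (x * y) ^ k = x ^ k := by
        rw [hcxy.mul_pow, hyk, mul_one]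
      rw [h3] at h
      have h4 := not_coprime_of_scal x t (p ^ a) (pow_pos hp.pos a) hxp (hfx t ht hnst) k h
      by_contra hdvd
      apply h4
      have h5 : Nat.Coprime p k := (Nat.Prime.coprime_iff_not_dvd hp).mpr hdvd
      exact (Nat.Coprime.pow_left a h5).symm
    exact Nat.Coprime.mul_dvd_of_dvd_of_dvd ((Nat.coprime_primes hp hs).mpr hps) h2 h1
  obtain ⟨r, hF, hr, -⟩ := hN4 (x * y) hgT (inv_conj_mem _ hgT _ (mul_pos (pow_pos hp.pos a) hs.pos) hgn) (p * s) hd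
  rw [he, one_mul] at hF
  have hCEN := finrank_le_fixAd (x * y)
  have hNr : N ≤ r := by
    rw [← hDN]
    exact hCEN.trans hF
  have hp3 : 3 ≤ p := by
    have h2 := hp.two_le
    obtain ⟨m, hm⟩ := hpo
    omega
  have hs0 := hs.pos
  obtain ⟨m, rfl⟩ : ∃ m, N = m + 1 := ⟨N - 1, by omega⟩
  have hm0 : 0 < m := by omega
  have h1 : p * s * m ≤ p * s * (r - 1) := by
    apply Nat.mul_le_mul_left
    omega
  have h2 : p * s * m + 1 ≤ (m + 1) ^ 2 := by omega
  have h3 : p * s ≤ m + 2 := by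
    have : p * s * m ≤ (m + 2) * m := by nlinarith
    exact Nat.le_of_mul_le_mul_right this hm0
  rw [hDN] at h2s
  have h4 : 3 * s ≤ p * s := Nat.mul_le_mul_right s hp3
  omega

end Main

end Cfsg.Agent.Lib.BGHH
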