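import Mathlib
import Cfsg.Agent.Lib.BGen
import Cfsg.Agent.Lib.BRank1
import Cfsg.Agent.Lib.SpinFinal

/-!
# Stem extensions of the simple groups attached to `QV q`: the reductions
-/

set_option autoImplicit false
set_option linter.unusedSectionVars false
set_option linter.unusedVariables false

namespace Cfsg.Agent.Lib.BUpper

open Subgroup QuadraticMap Cfsg Cfsg.Agent.Lib.OrthoBasic Cfsg.Agent.Lib.OrthoSiegel Cfsg.Agent.Lib.OrthoGen
  Cfsg.Agent.Lib.OrthoCount Cfsg.Agent.Lib.OrthoOrder Cfsg.Agent.Lib.OrthoSimple Cfsg.Agent.Lib.StA Cfsg.Agent.Lib.StK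
  Cfsg.Agent.Lib.StMain Cfsg.Agent.Lib.SL2Core Cfsg.Agent.Lib.SL2Bor Cfsg.Agent.Lib.SpinSys
  Cfsg.Agent.Lib.SpinTarget Cfsg.Agent.Lib.BSys Cfsg.Agent.Lib.BCell Cfsg.Agent.Lib.BTarget Cfsg.Agent.Lib.BKer Cfsg.Agent.Lib.BLift
  Cfsg.Agent.Lib.BRank1 Cfsg.Agent.Lib.BGenS
open Cfsg.Agent.Lib.SpinKer (SecD comm_sections)
open scoped commutatorElement

universe u

variable {F : Type u} [Field F] [Fintype F] {W : Type u} [AddCommGroup W] [Module F W] [FiniteDimensional F W] {l : ℕ} {q : QuadraticForm F W}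

/-- The Siegel group. -/
noncomputable abbrev SgV (l : ℕ) (q : QuadraticForm F W) : Subgroup (OG (QV (l := l) q)) := siegelE (QV q)

/-- The simple group. -/
noncomputable abbrev POV (l : ℕ) (q : QuadraticForm F W) : Type u := SgV l q ⧸ center (SgV l q)

/-- The projection. -/
noncomputable abbrev piV (l : ℕ) (q : QuadraticForm F W) : SgV l q →* POV l q := QuotientGroup.mk' _

section Pull

variable {Γ : Type u} [Group Γ] (σ₀ : Γ →* POV l q)

/-- The pullback. -/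
noncomputable def Pb : Subgroup (Γ × SgV l q) :=
  MonoidHom.eqLocus (σ₀.comp (MonoidHom.fst Γ _)) ((piV l q).comp (MonoidHom.snd Γ _))

lemma mem_Pb {p : Γ × SgV l q} : p ∈ Pb σ₀ ↔ σ₀ p.1 = piV l q p.2 := Iff.rfl

/-- The second projection of the pullback into the orthogonal group. -/
noncomputable def sgP : Pb σ₀ →* OG (QV (l := l) q) := (SgV l q).subtype.comp ((MonoidHom.snd Γ _).comp (Pb σ₀).subtype)

/-- The first projection of the pullback. -/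
noncomputable def fstP : Pb σ₀ →* Γ := (MonoidHom.fst Γ _).comp (Pb σ₀).subtype

lemma sgP_mem (p : Pb σ₀) : sgP σ₀ p ∈ SgV l q := (p.1.2).2

variable {σ₀} (hσ : IsStemExtension σ₀)

include hσ

lemma sgP_ker : (sgP σ₀).ker ≤ center (Pb σ₀) := by
  rintro ⟨⟨γ, s⟩, hp⟩ hk
  have hs1 : s = 1 := Subtype.ext hk
  subst hs1
  have h1 : σ₀ γ = 1 := by
    have := (mem_Pb σ₀).mp hp
    simpa using this
  have h2 : γ ∈ center Γ := hσ.2.1 h1
  rw [mem_center_iff]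
  rintro ⟨⟨δ, t⟩, ht⟩
  apply Subtype.ext
  apply Prod.ext
  · exact mem_center_iff.mp h2 δ
  · show t * 1 = 1 * t
    simp

lemma sgP_surj {s : OG (QV (l := l) q)} (hs : s ∈ SgV l q) : ∃ p : Pb σ₀, sgP σ₀ p = s := by
  obtain ⟨γ, hγ⟩ := hσ.1 (piV l q ⟨s, hs⟩)
  exact ⟨⟨(γ, ⟨s, hs⟩), hγ⟩, rfl⟩

lemma fstP_surj (γ : Γ) : ∃ p : Pb σ₀, fstP σ₀ p = γ := by
  obtain ⟨s, hs⟩ := QuotientGroup.mk'_surjective _ (σ₀ γ)
  exact ⟨⟨(γ, s), hs.symm⟩, rfl⟩

lemma sgP_range : SgV l q ≤ (sgP σ₀).range := fun _ hs => sgP_surj hσ hs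

end Pull

section Onto

variable {Γ' : Type*} [Group Γ'] {σ' : Γ' →* OG (QV (l := l) q)}
  {x : Fin l ⊕ Fin l → Fin l ⊕ Fin l → F → Γ'} {y : Fin l ⊕ Fin l → W → Γ'} (hρ : ActB σ' x y)

include hρ

/-- The subgroup generated by the lifted root elements maps onto the Siegel group. -/
lemma map_onto (haniso : ∀ w : W, q w = 0 → w = 0) {s : OG (QV (l := l) q)} (hs : s ∈ SgV l q) :
    ∃ p ∈ QB x y (Finset.univ : Finset (Fin l ⊕ Fin l)), σ' p = s := by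
  have hs' : s ∈ GV (l := l) q := by
    rw [GV_eq q haniso]
    exact hs
  clear hs
  induction hs' using closure_induction with
  | mem t ht =>
    rcases ht with ⟨a, b, c, h, rfl⟩ | ⟨a, u, rfl⟩
    · exact ⟨x a b c, x_mem_QB (Finset.mem_univ _) (Finset.mem_univ _) h c, hρ.hx h c⟩
    · exact ⟨y a u, y_mem_QB (Finset.mem_univ _) u, hρ.hy a u⟩
  | one => exact ⟨1, one_mem _, map_one _⟩
  | mul a b _ _ ha hb =>
    obtain ⟨p, hp, rfl⟩ := ha
    obtain ⟨r, hr, rfl⟩ := hb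
    exact ⟨p * r, mul_mem hp hr, map_mul _ _ _⟩
  | inv a _ ha =>
    obtain ⟨p, hp, rfl⟩ := ha
    exact ⟨p⁻¹, inv_mem hp, map_inv _ _⟩

end Onto

section Class

variable {Γ : Type u} [Group Γ] [Finite Γ] {σ₀ : Γ →* POV l q} (hσ : IsStemExtension σ₀)
  {x : Fin l ⊕ Fin l → Fin l ⊕ Fin l → F → Pb σ₀} {y : Fin l ⊕ Fin l → W → Pb σ₀} (hρ : ActB (sgP σ₀) x y)

include hσ hρ

/-- The kernel lifts to the subgroup generated by the lifted root elements. -/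
theorem K_lift (hQ : Nondeg (QV (l := l) q)) (fr : Frame (QV (l := l) q)) (haniso : ∀ w : W, q w = 0 → w = 0) {k : Γ} (hk : k ∈ σ₀.ker) :
    ∃ p ∈ QB x y (Finset.univ : Finset (Fin l ⊕ Fin l)), fstP σ₀ p = k ∧ ∃ c : F, c ^ 2 = 1 ∧ ∀ v,
      ((sgP σ₀ p : OG (QV (l := l) q)) : VB l F W ≃ₗ[F] VB l F W) v = c • v := by
  have hcomm : commutator Γ ≤ (QB x y (Finset.univ : Finset (Fin l ⊕ Fin l))).map (fstP σ₀) := by
    rw [_root_.commutator_def, Subgroup.commutator_le]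
    intro γ _ δ _
    obtain ⟨u, hu⟩ := fstP_surj hσ γ
    obtain ⟨v, hv⟩ := fstP_surj hσ δ
    obtain ⟨q₁, hq₁, e₁⟩ := map_onto hρ haniso (sgP_mem σ₀ u)
    obtain ⟨q₂, hq₂, e₂⟩ := map_onto hρ haniso (sgP_mem σ₀ v)
    refine ⟨⁅q₁, q₂⁆, ?_, ?_⟩
    · rw [commutatorElement_def]
      exact mul_mem (mul_mem (mul_mem hq₁ hq₂) (inv_mem hq₁)) (inv_mem hq₂)
    · rw [comm_eq_of_lifts (sgP σ₀) (sgP_ker hσ) e₁ e₂, map_commutatorElement, hu, hv]
  obtain ⟨p, hp, rfl⟩ := hcomm (hσ.2.2 hk)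
  refine ⟨p, hp, rfl, ?_⟩
  have h1 : piV l q p.1.2 = 1 := by
    have := (mem_Pb σ₀).mp p.2
    rw [← this]
    exact hk
  have h2 : p.1.2 ∈ center (SgV l q) := (QuotientGroup.eq_one_iff _).mp h1
  exact center_scalar hQ fr _ h2

end Class

end Cfsg.Agent.Lib.BUpper
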