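import Mathlib
import Cfsg.Agent.Lib.BSec
import Cfsg.Agent.Lib.BUpper

/-!
# `SL₂(K)` in the orthogonal groups of minus type
-/

set_option autoImplicit false
set_option linter.unusedSectionVars false
set_option linter.unusedVariables false

namespace Cfsg.Agent.Lib.BMinus

open Subgroup QuadraticMap Cfsg Cfsg.Agent.Lib.SL2Core Cfsg.Agent.Lib.SL2Bor Cfsg.Agent.Lib.StK Cfsg.Agent.Lib.StA Cfsg.Agent.Lib.StMain
  Cfsg.Agent.Lib.SpinSys Cfsg.Agent.Lib.BSys Cfsg.Agent.Lib.BCell Cfsg.Agent.Lib.BTarget Cfsg.Agent.Lib.BKer Cfsg.Agent.Lib.BLift Cfsg.Agent.Lib.OrthoBasic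
  Cfsg.Agent.Lib.OrthoCount Cfsg.Agent.Lib.OrthoGen Cfsg.Agent.Lib.OrthoSiegel Cfsg.Agent.Lib.SpinTarget Cfsg.Agent.Lib.BRot Cfsg.Agent.Lib.BSec
open scoped commutatorElement

section Embed

variable {F : Type*} [Field F] [Fintype F] {W : Type*} [AddCommGroup W] [Module F W] {l : ℕ} {q : QuadraticForm F W}

/-- The projection onto a hyperbolic plane and `W`. -/
def prH (i₀ : Fin l) : VB l F W →ₗ[F] (F × F × W) where
  toFun v := (v.1 (.inl i₀), v.1 (.inr i₀), v.2)
  map_add' _ _ := rfl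
  map_smul' _ _ := rfl

lemma prH_apply (i₀ : Fin l) (v : VB l F W) : prH i₀ v = (v.1 (.inl i₀), v.1 (.inr i₀), v.2) := rfl

/-- Replace the coordinates on the hyperbolic plane and `W`. -/
def spH (i₀ : Fin l) (v : VB l F W) (s : F × F × W) : VB l F W :=
  (fun k => if k = .inl i₀ then s.1 else if k = .inr i₀ then s.2.1 else v.1 k, s.2.2)

lemma spH_fst (i₀ : Fin l) (v : VB l F W) (s : F × F × W) (k : Fin l ⊕ Fin l) :
    (spH i₀ v s).1 k = if k = .inl i₀ then s.1 else if k = .inr i₀ then s.2.1 else v.1 k := rfl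

lemma spH_snd (i₀ : Fin l) (v : VB l F W) (s : F × F × W) : (spH i₀ v s).2 = s.2.2 := rfl

lemma prH_spH (i₀ : Fin l) (v : VB l F W) (s : F × F × W) : prH i₀ (spH i₀ v s) = s := by
  obtain ⟨x, y, w⟩ := s
  simp [prH_apply, spH_fst, spH_snd]

lemma spH_spH (i₀ : Fin l) (v : VB l F W) (s s' : F × F × W) : spH i₀ (spH i₀ v s) s' = spH i₀ v s' := by
  apply Prod.ext
  · funext k
    simp only [spH_fst]
    split_ifs <;> rfl
  · rfl

lemma spH_prH (i₀ : Fin l) (v : VB l F W) : spH i₀ v (prH i₀ v) = v := by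
  apply Prod.ext
  · funext k
    simp only [spH_fst, prH_apply]
    split_ifs with h1 h2
    · rw [h1]
    · rw [h2]
    · rfl
  · rfl

lemma spH_add (i₀ : Fin l) (v v' : VB l F W) (s s' : F × F × W) : spH i₀ (v + v') (s + s') = spH i₀ v s + spH i₀ v' s' := by
  apply Prod.ext
  · funext k
    simp only [spH_fst, Prod.fst_add, Pi.add_apply, Prod.snd_add]
    split_ifs <;> rfl
  · rfl

lemma spH_smul (i₀ : Fin l) (c : F) (v : VB l F W) (s : F × F × W) : spH i₀ (c • v) (c • s) = c • spH i₀ v s := by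
  apply Prod.ext
  · funext k
    simp only [spH_fst, Prod.smul_fst, Pi.smul_apply, Prod.smul_snd]
    split_ifs <;> rfl
  · rfl

lemma qPlus_erase (i₀ : Fin l) (f : Fin l ⊕ Fin l → F) :
    qPlus l F f = f (.inl i₀) * f (.inr i₀) + ∑ i ∈ Finset.univ.erase i₀, f (.inl i) * f (.inr i) := by
  rw [qPlus_apply]
  unfold Cfsg.quadFormPlus
  exact (Finset.add_sum_erase _ _ (Finset.mem_univ i₀)).symm

lemma QV_spH (i₀ : Fin l) (v : VB l F W) (s : F × F × W) :
    QV q (spH i₀ v s) = QV q v - hypQ q (prH i₀ v) + hypQ q s := by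
  obtain ⟨x, y, w⟩ := s
  rw [QV_apply, QV_apply, qPlus_erase i₀, qPlus_erase i₀ v.1, prH_apply, hypQ_apply, hypQ_apply, spH_snd]
  have e1 : (spH i₀ v (x, y, w)).1 (.inl i₀) = x := by simp [spH_fst]
  have e2 : (spH i₀ v (x, y, w)).1 (.inr i₀) = y := by simp [spH_fst]
  have e3 : ∑ i ∈ Finset.univ.erase i₀, (spH i₀ v (x, y, w)).1 (.inl i) * (spH i₀ v (x, y, w)).1 (.inr i) =
      ∑ i ∈ Finset.univ.erase i₀, v.1 (.inl i) * v.1 (.inr i) := by
    apply Finset.sum_congr rfl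
    intro i hi
    have hi' : i ≠ i₀ := Finset.ne_of_mem_erase hi
    simp [spH_fst, hi']
  rw [e1, e2, e3]
  ring

variable [FiniteDimensional F W]

/-- The linear map attached to a map on the hyperbolic plane and `W`. -/
def embLin (i₀ : Fin l) (g : (F × F × W) →ₗ[F] (F × F × W)) : VB l F W →ₗ[F] VB l F W where
  toFun v := spH i₀ v (g (prH i₀ v))
  map_add' u v := by
    rw [map_add, map_add, spH_add]
  map_smul' c v := by
    rw [map_smul, map_smul, spH_smul]
    rfl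

lemma embLin_apply (i₀ : Fin l) (g : (F × F × W) →ₗ[F] (F × F × W)) (v : VB l F W) : embLin i₀ g v = spH i₀ v (g (prH i₀ v)) := rfl

variable (hq : Nondeg q)

/-- The embedding of the orthogonal group of a hyperbolic plane plus `W`. -/
noncomputable def embH (i₀ : Fin l) : OG (hypQ q) →* OG (QV (l := l) q) where
  toFun g := OG.ofLinear (nondeg_QV hq) (embLin i₀ ((g : (F × F × W) ≃ₗ[F] (F × F × W)) : (F × F × W) →ₗ[F] (F × F × W))) (fun v => by
    rw [embLin_apply, QV_spH]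
    simp only [LinearEquiv.coe_coe]
    rw [OG_apply]
    ring)
  map_one' := by
    apply OG_ext
    intro v
    exact spH_prH i₀ v
  map_mul' g h := by
    apply OG_ext
    intro v
    show spH i₀ v ((g * h : OG (hypQ q)).1 (prH i₀ v)) = spH i₀ (spH i₀ v (h.1 (prH i₀ v))) (g.1 (prH i₀ (spH i₀ v (h.1 (prH i₀ v)))))
    rw [spH_spH, prH_spH]
    rfl

lemma embH_apply (i₀ : Fin l) (g : OG (hypQ q)) (v : VB l F W) :
    ((embH hq i₀ g : OG (QV (l := l) q)) : VB l F W ≃ₗ[F] VB l F W) v = spH i₀ v ((g : (F × F × W) ≃ₗ[F] (F × F × W)) (prH i₀ v)) := rfl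

lemma embH_inj (i₀ : Fin l) {g : OG (hypQ q)} (h : embH hq i₀ g = 1) : g = 1 := by
  apply OG_ext
  intro s
  have h1 := congrArg (fun t : OG (QV (l := l) q) => prH i₀ ((t : VB l F W ≃ₗ[F] VB l F W) (spH i₀ 0 s))) h
  simp only [embH_apply, prH_spH] at h1
  exact h1.trans (prH_spH i₀ 0 s)

/-- The rotation of `W`. -/
noncomputable def rotV (g : OG q) : OG (QV (l := l) q) :=
  OG.ofLinear (nondeg_QV hq) (LinearMap.prodMap LinearMap.id ((g : W ≃ₗ[F] W) : W →ₗ[F] W)) (fun v => by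
    obtain ⟨v, w⟩ := v
    rw [QV_apply, QV_apply]
    simp [OG_apply])

lemma rotV_fst (g : OG q) (v : VB l F W) : (((rotV hq g : OG (QV (l := l) q)) : VB l F W ≃ₗ[F] VB l F W) v).1 = v.1 := rfl

lemma rotV_snd (g : OG q) (v : VB l F W) : (((rotV hq g : OG (QV (l := l) q)) : VB l F W ≃ₗ[F] VB l F W) v).2 = (g : W ≃ₗ[F] W) v.2 := rfl

lemma rot_YO (g : OG q) (a : Fin l ⊕ Fin l) (w : W) :
    rotV hq g * YO q a w * (rotV hq g)⁻¹ = YO q a ((g : W ≃ₗ[F] W) w) := by
  rw [mul_inv_eq_iff_eq_mul]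
  apply OG_ext
  intro v
  simp only [Subgroup.coe_mul, LinearEquiv.mul_apply]
  apply Prod.ext
  · funext k
    rw [rotV_fst, YO_fst, YO_fst, rotV_fst, rotV_snd, OG_polar, OG_apply]
  · rw [rotV_snd, YO_snd, YO_snd, rotV_fst, rotV_snd, map_add, map_smul]

lemma rot_XV (g : OG q) (a b : Fin l ⊕ Fin l) (c : F) : Commute (rotV hq g) (XV q a b c) := by
  show _ * _ = _ * _
  apply OG_ext
  intro v
  simp only [Subgroup.coe_mul, LinearEquiv.mul_apply]
  have key : ∀ v : VB l F W, ((XV q a b c : OG (QV (l := l) q)) : VB l F W ≃ₗ[F] VB l F W) v = (((XO a b c : OG (qPlus l F)) : _ ≃ₗ[F] _) v.1, v.2) :=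
    fun v => embO_apply q _ v
  apply Prod.ext
  · rw [rotV_fst, key, key, rotV_fst]
  · rw [rotV_snd, key, key, rotV_snd]

end Embed

section K

open Cfsg.Agent.Lib.OrthoDihedral Cfsg.Agent.Lib.OrthoFourMinus Cfsg.Agent.Lib.QuadExt Cfsg.Agent.Lib.HermCount Cfsg.Agent.Lib.UnitaryBasic

variable {F K : Type*} [Field F] [Fintype F] [Field K] [Fintype K] [Algebra F K] [FiniteDimensional F K] {a b : F} {θ : K} {q : ℕ}
  (H : Data F K a b θ) (hF : Fintype.card F = q) (hK : Fintype.card K = q ^ 2) {l : ℕ} (i₀ : Fin l)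

/-- The homomorphism from `SL₂(K)`. -/
noncomputable def phiK : SL2 K →* OG (QV (l := l) (QK H hF hK)) :=
  (embH (QK_nondeg H hF hK) i₀).comp (phi0 H hF hK)

lemma phiK_apply (m : SL2 K) (v : VB l F K) :
    ((phiK H hF hK i₀ m : OG (QV (l := l) (QK H hF hK))) : VB l F K ≃ₗ[F] VB l F K) v = spH i₀ v (actK hF hK m.1 (prH i₀ v)) := rfl

lemma phiK_one_iff (m : SL2 K) : phiK H hF hK i₀ m = 1 → ∃ c : K, c ^ 2 = 1 ∧ m.1 = c • 1 := by
  intro h
  rw [← phi0_eq_one_iff H hF hK]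
  exact embH_inj (QK_nondeg H hF hK) i₀ h

omit [FiniteDimensional F K] in
lemma actK_uu (t : K) (x y : F) (β : K) :
    actK hF hK (uu t : SL2 K).1 (x, y, β) = (x + polar (QK H hF hK) β t - QK H hF hK t * y, y, β - y • t) := by
  have hq0 : q ≠ 0 := by
    have := two_le_q hK
    omega
  have e : y • t = algebraMap F K y * t := Algebra.smul_def _ _
  rw [e]
  apply herm_injective hK
  rw [herm_actK]
  ext i j
  fin_cases i <;> fin_cases j <;>
    simp [herm, Matrix.mul_apply, Fin.sum_univ_two, cT_apply, uu, mk2, hq0, QK_polar H hF hK, QK_nrm H hF hK, nrm, Cfsg.Agent.Lib.QuadExt.sub_pow_q hK,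
      pow_q_algebraMap hF, mul_pow]
  all_goals ring

omit [FiniteDimensional F K] in
lemma actK_ll (t : K) (x y : F) (β : K) :
    actK hF hK (ll t : SL2 K).1 (x, y, β) = (x, y - polar (QK H hF hK) β (t ^ q) - QK H hF hK (t ^ q) * x, β + x • t ^ q) := by
  have hq0 : q ≠ 0 := by
    have := two_le_q hK
    omega
  have e : x • t ^ q = algebraMap F K x * t ^ q := Algebra.smul_def _ _
  rw [e]
  apply herm_injective hK
  rw [herm_actK]
  ext i j
  fin_cases i <;> fin_cases j <;>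
    simp [herm, Matrix.mul_apply, Fin.sum_univ_two, cT_apply, ll, mk2, hq0, QK_polar H hF hK, QK_nrm H hF hK, nrm, add_pow_q hK,
      pow_q_algebraMap hF, mul_pow, pow_q_pow_q hK]
  all_goals ring

omit [FiniteDimensional F K] in
lemma actK_diag (d : K) (hd : d ≠ 0) (hn : nrm q d = 1) (x y : F) (β : K) :
    actK hF hK (borEl d hd 0 : SL2 K).1 (x, y, β) = (x, y, d ^ 2 * β) := by
  have hq0 : q ≠ 0 := by
    have := two_le_q hK
    omega
  have hn' : d * d ^ q = 1 := hn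
  have hdq : d ^ q = d⁻¹ := eq_inv_of_mul_eq_one_right hn'
  have hd2q : (d ^ 2) ^ q = (d⁻¹) ^ 2 := by
    rw [← pow_mul, mul_comm, pow_mul, hdq]
  apply herm_injective hK
  rw [herm_actK]
  ext i j
  fin_cases i <;> fin_cases j <;>
    simp [herm, Matrix.mul_apply, Fin.sum_univ_two, cT_apply, borEl, mk2, hq0, mul_pow, hdq, hd2q, inv_pow]
  · field_simp
  · field_simp
  · field_simp
  · field_simp

lemma phiK_uu (t : K) : phiK H hF hK i₀ (uu t) = YO (QK H hF hK) (.inl i₀) (-t) := by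
  apply OG_ext
  intro v
  rw [phiK_apply, prH_apply, actK_uu H hF hK]
  apply Prod.ext
  · funext k
    rw [spH_fst, YO_fst]
    by_cases h1 : k = .inl i₀
    · subst h1
      simp [polar_neg_right]
      ring
    · by_cases h2 : k = .inr i₀
      · subst h2
        simp
      · simp [h1, h2]
  · rw [spH_snd, YO_snd]
    simp [sub_eq_add_neg]

lemma phiK_ll (t : K) : phiK H hF hK i₀ (ll t) = YO (QK H hF hK) (.inr i₀) (t ^ q) := by
  apply OG_ext
  intro v
  rw [phiK_apply, prH_apply, actK_ll H hF hK]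
  apply Prod.ext
  · funext k
    rw [spH_fst, YO_fst]
    by_cases h1 : k = .inl i₀
    · subst h1
      simp
    · by_cases h2 : k = .inr i₀
      · subst h2
        simp
        ring
      · simp [h1, h2]
  · rw [spH_snd, YO_snd]
    simp

lemma nrm_sq_of {d : K} (hn : nrm q d = 1) : nrm q (d ^ 2) = 1 := by
  rw [_root_.sq, nrm_mul, hn, one_mul]

lemma phiK_diag (d : K) (hd : d ≠ 0) (hn : nrm q d = 1) :
    phiK H hF hK i₀ (borEl d hd 0) = rotV (QK_nondeg H hF hK) (mulEl H hF hK (d ^ 2) (nrm_sq_of hn)) := by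
  apply OG_ext
  intro v
  rw [phiK_apply, prH_apply, actK_diag hF hK d hd hn]
  apply Prod.ext
  · funext k
    rw [spH_fst, rotV_fst]
    by_cases h1 : k = .inl i₀
    · subst h1
      simp
    · by_cases h2 : k = .inr i₀
      · subst h2
        simp
      · simp [h1, h2]
  · rw [spH_snd, rotV_snd]
    rfl

lemma phiK_mem (m : SL2 K) : phiK H hF hK i₀ m ∈ siegelE (QV (l := l) (QK H hF hK)) := by
  refine sl2_ind (fun m => phiK H hF hK i₀ m ∈ siegelE (QV (l := l) (QK H hF hK))) ?_ ?_ ?_ m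
  · intro t
    rw [phiK_uu]
    exact YO_mem _ _ _
  · intro t
    rw [phiK_ll]
    exact YO_mem _ _ _
  · intro A B hA hB
    rw [map_mul]
    exact mul_mem hA hB

/-- The rotation data. -/
theorem rotData {Γ : Type*} [Group Γ] {σ : Γ →* OG (QV (l := l) (QK H hF hK))} (hc : σ.ker ≤ center Γ)
    (hr : siegelE (QV (l := l) (QK H hF hK)) ≤ σ.range) (hl : 3 ≤ l) {d : K} (hd : d ≠ 0) (hn : nrm q d = 1) (hd2 : d ^ 2 ≠ 1) {τ : Γ}
    (hτ : σ τ = phiK H hF hK i₀ (borEl d hd 0)) :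
    RotData σ τ (LinearMap.mulLeft F (d ^ 2)) (LinearMap.mulLeft F ((d ^ 2 - 1)⁻¹)) := by
  have hd1 : d ^ 2 - 1 ≠ 0 := sub_ne_zero.mpr hd2
  refine ⟨hc, hr, hl, ?_, ?_, ?_, ?_, ?_⟩
  · intro a b h c
    rw [hτ, phiK_diag H hF hK i₀ d hd hn]
    exact rot_XV _ _ _ _ _
  · intro a w
    rw [hτ, phiK_diag H hF hK i₀ d hd hn]
    exact rot_YO _ _ _ _
  · intro w
    simp only [LinearMap.mulLeft_apply]
    field_simp
    ring
  · intro w
    simp only [LinearMap.mulLeft_apply]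
    ring
  · intro w
    simp only [LinearMap.mulLeft_apply]
    rw [QK_eq_iff, nrm_mul, nrm_sq_of hn, one_mul]

end K

end Cfsg.Agent.Lib.BMinus
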