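import Mathlib
import Cfsg.Agent.Lib.BMinus

/-!
# The rank one data for the orthogonal groups of minus type
-/

set_option autoImplicit false
set_option linter.unusedSectionVars false
set_option linter.unusedVariables false

namespace Cfsg.Agent.Lib.BMinus

open Subgroup QuadraticMap Cfsg Cfsg.Agent.Lib.SL2Core Cfsg.Agent.Lib.SL2Bor Cfsg.Agent.Lib.StK Cfsg.Agent.Lib.StA Cfsg.Agent.Lib.StMain
  Cfsg.Agent.Lib.SpinSys Cfsg.Agent.Lib.BSys Cfsg.Agent.Lib.BCell Cfsg.Agent.Lib.BTarget Cfsg.Agent.Lib.BKer Cfsg.Agent.Lib.BLift Cfsg.Agent.Lib.OrthoBasic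
  Cfsg.Agent.Lib.OrthoCount Cfsg.Agent.Lib.OrthoGen Cfsg.Agent.Lib.OrthoSiegel Cfsg.Agent.Lib.SpinTarget Cfsg.Agent.Lib.BRot Cfsg.Agent.Lib.BSec
  Cfsg.Agent.Lib.BRank1
open Cfsg.Agent.Lib.OrthoDihedral Cfsg.Agent.Lib.OrthoFourMinus Cfsg.Agent.Lib.QuadExt Cfsg.Agent.Lib.HermCount Cfsg.Agent.Lib.UnitaryBasic
open scoped commutatorElement

section Gen

variable {F : Type*} [Field F] [Fintype F] {W : Type*} [AddCommGroup W] [Module F W] {l : ℕ} {Γ : Type*} [Group Γ]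
  {q : QuadraticForm F W} {σ : Γ →* OG (QV (l := l) q)} {τ : Γ} {ρ ρ' : W →ₗ[F] W}

/-- Two additive families of lifts related by the same element agree. -/
lemma _root_.Cfsg.Agent.Lib.BRot.RotData.defect (D : RotData σ τ ρ ρ') {A B : W → Γ} (hcen : ∀ w, A w * (B w)⁻¹ ∈ center Γ) (hA : ∀ u v, A (u + v) = A u * A v)
    (hB : ∀ u v, B (u + v) = B u * B v) (τ' : Γ) (hτA : ∀ w, τ' * A w * τ'⁻¹ = A (ρ w)) (hτB : ∀ w, τ' * B w * τ'⁻¹ = B (ρ w)) (w : W) :
    A w = B w := by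
  set κ : W → Γ := fun w => A w * (B w)⁻¹ with hκ
  have hadd : ∀ u v, κ (u + v) = κ u * κ v := by
    intro u v
    have e := mem_center_iff.mp (hcen v) (A u)
    have e2 := mem_center_iff.mp (hcen v) (κ u)
    simp only [hκ] at e2 ⊢
    rw [hA, hB, e2]
    calc A u * A v * (B u * B v)⁻¹ = A u * (A v * (B v)⁻¹) * (B u)⁻¹ := by group
      _ = (A v * (B v)⁻¹) * A u * (B u)⁻¹ := by rw [e]
      _ = _ := by group
  have hρκ : ∀ w, κ (ρ w) = κ w := by
    intro w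
    have e := mem_center_iff.mp (hcen w) τ'
    simp only [hκ]
    rw [← hτA, ← hτB]
    calc τ' * A w * τ'⁻¹ * (τ' * B w * τ'⁻¹)⁻¹ = τ' * (A w * (B w)⁻¹) * τ'⁻¹ := by group
      _ = (A w * (B w)⁻¹) * τ' * τ'⁻¹ := by rw [e]
      _ = _ := by group
  have := D.kill hadd hρκ w
  exact mul_inv_eq_one.mp this

/-- Elements with the same image act in the same way by conjugation. -/
lemma conj_same {G : Type*} [Group G] {s : Γ →* G} (hc : s.ker ≤ center Γ) {τ₁ τ₂ : Γ} (h : s τ₁ = s τ₂) (g : Γ) :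
    τ₂ * g * τ₂⁻¹ = τ₁ * g * τ₁⁻¹ := by
  have h3 : τ₁⁻¹ * τ₂ ∈ center Γ := hc (by rw [MonoidHom.mem_ker, map_mul, map_inv, h, inv_mul_cancel])
  have e1 : τ₂ = τ₁ * (τ₁⁻¹ * τ₂) := by group
  have h4 := mem_center_iff.mp h3 g
  rw [e1]
  calc τ₁ * (τ₁⁻¹ * τ₂) * g * (τ₁ * (τ₁⁻¹ * τ₂))⁻¹ = τ₁ * ((τ₁⁻¹ * τ₂) * g) * (τ₁⁻¹ * τ₂)⁻¹ * τ₁⁻¹ := by group
    _ = τ₁ * (g * (τ₁⁻¹ * τ₂)) * (τ₁⁻¹ * τ₂)⁻¹ * τ₁⁻¹ := by rw [h4]
    _ = _ := by group

end Gen

section Rank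

variable {F K : Type*} [Field F] [Fintype F] [Field K] [Fintype K] [Algebra F K] [FiniteDimensional F K] {a b : F} {θ : K} {q : ℕ}
  (H : Data F K a b θ) (hF : Fintype.card F = q) (hK : Fintype.card K = q ^ 2) {r : ℕ}

omit [FiniteDimensional F K] [Fintype F] [Field F] [Algebra F K] in
include hK in
/-- Elements of given order and of norm one. -/
lemma exists_nrm (n : ℕ) (hn : n ∣ q + 1) : ∃ d : K, d ≠ 0 ∧ nrm q d = 1 ∧ orderOf d = n := by
  classical
  have hq2 : 2 ≤ q := two_le_q hK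
  obtain ⟨c, hc⟩ := IsCyclic.exists_generator (α := Kˣ)
  have hcord : orderOf c = (q - 1) * (q + 1) := by
    rw [orderOf_eq_card_of_forall_mem_zpowers hc, Nat.card_eq_fintype_card, Fintype.card_units, hK]
    obtain ⟨r, rfl⟩ : ∃ r, q = r + 1 := ⟨q - 1, by omega⟩
    simp only [Nat.add_sub_cancel]
    have : (r + 1) ^ 2 = r * (r + 1 + 1) + 1 := by ring
    omega
  obtain ⟨m, hm⟩ := hn
  have hn0 : n ≠ 0 := by
    rintro rfl
    omega
  have hm0 : m ≠ 0 := by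
    rintro rfl
    omega
  have hq1 : q - 1 ≠ 0 := by omega
  set u : Kˣ := c ^ ((q - 1) * m) with hu
  have hord : orderOf u = n := by
    rw [hu, orderOf_pow_of_dvd (Nat.mul_ne_zero hq1 hm0) (by rw [hcord]; exact Nat.mul_dvd_mul_left _ (Dvd.intro_left n hm.symm)), hcord, hm]
    rw [show (q - 1) * (n * m) = n * ((q - 1) * m) by ring, Nat.mul_div_cancel _ (Nat.pos_of_ne_zero (Nat.mul_ne_zero hq1 hm0))]
  refine ⟨(u : K), u.ne_zero, ?_, ?_⟩
  · rw [nrm_eq_pow, hm, pow_mul]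
    have h1 : (u : K) ^ n = 1 := by
      rw [← Units.val_pow_eq_pow_val, ← hord, pow_orderOf_eq_one, Units.val_one]
    rw [h1, one_pow]
  · rw [orderOf_units, hord]

lemma QK_one : QK H hF hK 1 = 1 := by
  apply (algebraMap F K).injective
  rw [QK_nrm, map_one]
  simp [nrm]

lemma QK_aniso (w : K) (h : QK H hF hK w = 0) : w = 0 := by
  have h1 := QK_nrm H hF hK w
  rw [h, map_zero] at h1
  exact (nrm_eq_zero hK).mp h1.symm

/-- A matrix in the kernel. -/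
lemma eq_one_or_neg {m : SL2 K} {c : K} (hc : c ^ 2 = 1) (hm : m.1 = c • 1) : m = 1 ∨ m = negS 1 := by
  rcases sq_eq_one_iff.mp hc with rfl | rfl
  · left
    apply Subtype.ext
    rw [hm, one_smul]
    rfl
  · right
    apply Subtype.ext
    rw [hm, negS_coe]
    simp

variable {Γ' : Type*} [Group Γ'] [Finite Γ'] {σ : Γ' →* OG (QV (l := r) (QK H hF hK))}

set_option maxHeartbeats 1000000 in
/-- The main data: root elements, sections and the kernel of the Steinberg cover. -/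
theorem rank_data (hc : σ.ker ≤ center Γ') (hrg : siegelE (QV (l := r) (QK H hF hK)) ≤ σ.range) (hl : 3 ≤ r) (i₀ : Fin r) :
    ∃ (x : Fin r ⊕ Fin r → Fin r ⊕ Fin r → F → Γ') (y : Fin r ⊕ Fin r → K → Γ') (ψ : SL2 K →* Γ'),
      SysB x y (QK H hF hK) ∧ ActB σ x y ∧ (∀ m, σ (ψ m) = phiK H hF hK i₀ m) ∧
      (∀ m, ψ m ∈ QB x y (Finset.univ : Finset (Fin r ⊕ Fin r))) ∧
      (∀ g ∈ QB x y (Finset.univ : Finset (Fin r ⊕ Fin r)), σ g = 1 → g = 1 ∨ g = ψ (negS 1)) := by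
  classical
  have hq2 : 2 ≤ q := two_le_q hK
  have hK4 : 4 ≤ Fintype.card K := by
    rw [hK]
    nlinarith
  obtain ⟨d, hd0, hdn, hdo⟩ := exists_nrm hK (q + 1) dvd_rfl
  have hd2 : d ^ 2 ≠ 1 := by
    intro h
    have h3 := orderOf_dvd_of_pow_eq_one h
    rw [hdo] at h3
    have := Nat.le_of_dvd (by norm_num) h3
    omega
  have hdq : d ^ q = d⁻¹ := eq_inv_of_mul_eq_one_right (show d * d ^ q = 1 from hdn)
  obtain ⟨τ, hτ⟩ := hrg (phiK_mem H hF hK i₀ (borEl d hd0 0))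
  have D := rotData H hF hK i₀ hc hrg hl hd0 hdn hd2 hτ
  have h1 : QK H hF hK 1 = 1 := QK_one H hF hK
  obtain ⟨y₀, hy₀⟩ := QK_nondeg H hF hK (1 : K) one_ne_zero
  have hp : polar (QK H hF hK) ((polar (QK H hF hK) 1 y₀)⁻¹ • y₀) 1 = 1 := by
    rw [polar_smul_l, polar_comm (QK H hF hK) y₀ 1, inv_mul_cancel₀ hy₀]
  have hsys := exists_sys_rot D hp
  obtain ⟨x, y, hs, hρ, hτx, hτy⟩ := hsys
  obtain ⟨Φ, hΦ⟩ := exists_secP hl σ hc hrg hs.hD hρ
  have hU : ∀ (s t : K) (a' b' : Γ'), σ a' = phiK H hF hK i₀ (uu s) → σ b' = phiK H hF hK i₀ (uu t) → Commute a' b' := by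
    intro s t a' b' h3 h4
    have e : ⁅a', b'⁆ = ⁅y (.inl i₀) (-s), y (.inl i₀) (-t)⁆ := by
      apply comm_eq_of_lifts σ hc
      · rw [h3, phiK_uu, hρ.hy]
      · rw [h4, phiK_uu, hρ.hy]
    rw [commutatorElement_eq_one_iff_commute.mpr (ycomm hs _ _ _)] at e
    exact commutatorElement_eq_one_iff_commute.mp e
  have hsec := sl2_section hK4 (phiK H hF hK i₀) σ hc (fun m => hrg (phiK_mem H hF hK i₀ m)) hU
  obtain ⟨ψ, hψ⟩ := hsec
  set τ' := ψ (borEl d hd0 0) with hτ'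
  have hστ : σ τ = σ τ' := by rw [hτ, hτ', hψ]
  have hconj : ∀ g, τ' * g * τ'⁻¹ = τ * g * τ⁻¹ := conj_same hc hστ
  have hconj' : ∀ g, τ'⁻¹ * (τ * g * τ⁻¹) * τ' = g := by
    intro g
    rw [← hconj]
    group
  -- the root elements of the rank one group
  have hψu : ∀ t, y (.inl i₀) (-t) = ψ (uu t) := by
    refine D.defect (A := fun t => y (.inl i₀) (-t)) (B := fun t => ψ (uu t)) ?_ ?_ ?_ τ' ?_ ?_
    · intro t
      apply hc
      rw [MonoidHom.mem_ker, map_mul, map_inv, hψ, phiK_uu, hρ.hy, mul_inv_cancel]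
    · intro u v
      rw [neg_add, hs.yadd]
    · intro u v
      rw [← map_mul]
      congr 1
      apply sl2_ext <;> simp [mul_apply2, add_comm]
    · intro t
      rw [hconj, hτy, LinearMap.mulLeft_apply, LinearMap.mulLeft_apply, mul_neg]
    · intro t
      rw [hτ', ← map_inv, ← map_mul, ← map_mul, LinearMap.mulLeft_apply]
      congr 1
      apply sl2_ext <;> simp [mul_apply2, inv00, inv01, inv10, inv11] <;> field_simp
  have hψl : ∀ t, y (.inr i₀) (t ^ q) = ψ (ll t) := by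
    refine D.defect (A := fun t => y (.inr i₀) (t ^ q)) (B := fun t => ψ (ll t)) ?_ ?_ ?_ τ'⁻¹ ?_ ?_
    · intro t
      apply hc
      rw [MonoidHom.mem_ker, map_mul, map_inv, hψ, phiK_ll, hρ.hy, mul_inv_cancel]
    · intro u v
      rw [add_pow_q hK, hs.yadd]
    · intro u v
      rw [← map_mul]
      congr 1
      apply sl2_ext <;> simp [mul_apply2, add_comm]
    · intro t
      have e1 : y (.inr i₀) (t ^ q) = τ * y (.inr i₀) ((LinearMap.mulLeft F (d ^ 2) t) ^ q) * τ⁻¹ := by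
        rw [hτy, LinearMap.mulLeft_apply, LinearMap.mulLeft_apply, mul_pow, ← pow_mul, mul_comm 2 q, pow_mul, hdq]
        congr 1
        field_simp
      rw [inv_inv]
      conv_lhs =>
        arg 1
        arg 2
        rw [e1]
      rw [hconj']
    · intro t
      rw [inv_inv, hτ', ← map_inv, ← map_mul, ← map_mul, LinearMap.mulLeft_apply]
      congr 1
      apply sl2_ext <;> simp [mul_apply2, inv00, inv01, inv10, inv11] <;> field_simp
  -- the rank one kernel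
  have hnegm : ∀ {c d' : Fin r ⊕ Fin r}, c ∈ ({Sum.inl i₀, (Sum.inl i₀).swap} : Finset (Fin r ⊕ Fin r)) →
      d' ∈ ({Sum.inl i₀, (Sum.inl i₀).swap} : Finset (Fin r ⊕ Fin r)) → ¬ Ind c d' := by
    intro c d' hc' hd' hI
    simp only [Finset.mem_insert, Finset.mem_singleton] at hc' hd'
    rcases hc' with rfl | rfl <;> rcases hd' with rfl | rfl
    · exact hI.1 rfl
    · exact hI.2 rfl
    · exact hI.2 (by simp)
    · exact hI.1 rfl
  have hQB : ∀ g ∈ QB x y ({Sum.inl i₀, (Sum.inl i₀).swap} : Finset (Fin r ⊕ Fin r)), ∃ m, g = ψ m := by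
    intro g hg
    induction hg using closure_induction with
    | mem g hg =>
      rcases hg with ⟨c, hc', d', hd', hI, -⟩ | ⟨c, hc', w, rfl⟩
      · exact absurd hI (hnegm hc' hd')
      · simp only [Finset.mem_insert, Finset.mem_singleton] at hc'
        rcases hc' with rfl | rfl
        · refine ⟨uu (-w), ?_⟩
          rw [← hψu, neg_neg]
        · refine ⟨ll (w ^ q), ?_⟩
          rw [← hψl, pow_q_pow_q hK]
          rfl
    | one => exact ⟨1, (map_one _).symm⟩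
    | mul a' b' _ _ ha hb =>
      obtain ⟨m, rfl⟩ := ha
      obtain ⟨n, rfl⟩ := hb
      exact ⟨m * n, (map_mul _ _ _).symm⟩
    | inv a' _ ha =>
      obtain ⟨m, rfl⟩ := ha
      exact ⟨m⁻¹, (map_inv _ _).symm⟩
  have hbase : ∀ g ∈ QB x y ({Sum.inl i₀, (Sum.inl i₀).swap} : Finset (Fin r ⊕ Fin r)), σ g = 1 → g = 1 ∨ g = ψ (negS 1) := by
    intro g hg hg1
    obtain ⟨m, rfl⟩ := hQB g hg
    rw [hψ] at hg1
    obtain ⟨c, hc2, hcm⟩ := phiK_one_iff H hF hK i₀ m hg1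
    rcases eq_one_or_neg hc2 hcm with rfl | rfl
    · left
      exact map_one _
    · right
      rfl
  have hτt : ∀ {a' b' : Fin r ⊕ Fin r}, Ind a' b' → ∀ (t : F) (ht : t ≠ 0),
      (Φ a' b' (borEl t ht 0))⁻¹ * Φ a' b'.swap (borEl t ht 0) ∈ QB x y ({b', b'.swap} : Finset (Fin r ⊕ Fin r)) :=
    fun h t ht => tau_mem hs hΦ h1 hp h t ht
  have hker := ker_univ hρ hs hΦ (QK_aniso H hF hK) hτt (u₀ := 1) (by rw [h1]; exact one_ne_zero) hbase
  refine ⟨x, y, ψ, hs, hρ, hψ, ?_, hker⟩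
  intro m
  refine sl2_ind (fun m => ψ m ∈ QB x y (Finset.univ : Finset (Fin r ⊕ Fin r))) ?_ ?_ ?_ m
  · intro t
    rw [← hψu]
    exact y_mem_QB (Finset.mem_univ _) _
  · intro t
    rw [← hψl]
    exact y_mem_QB (Finset.mem_univ _) _
  · intro A B hA hB
    rw [map_mul]
    exact mul_mem hA hB

end Rank

end Cfsg.Agent.Lib.BMinus
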