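import Mathlib
import Cfsg.Agent.Lib.BMinus2
import Cfsg.Agent.Lib.PgoFamilies
import Cfsg.Agent.Lib.SpinFinal

/-!
# The Schur multipliers of the orthogonal groups of minus type
-/

set_option autoImplicit false
set_option linter.unusedSectionVars false
set_option linter.unusedVariables false

namespace Cfsg.Agent.Lib.BMinus

open Subgroup QuadraticMap Cfsg Cfsg.Agent.Lib.SL2Core Cfsg.Agent.Lib.SL2Bor Cfsg.Agent.Lib.StK Cfsg.Agent.Lib.StA Cfsg.Agent.Lib.StMain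
  Cfsg.Agent.Lib.SpinSys Cfsg.Agent.Lib.BSys Cfsg.Agent.Lib.BCell Cfsg.Agent.Lib.BTarget Cfsg.Agent.Lib.BKer Cfsg.Agent.Lib.BLift Cfsg.Agent.Lib.OrthoBasic
  Cfsg.Agent.Lib.OrthoCount Cfsg.Agent.Lib.OrthoGen Cfsg.Agent.Lib.OrthoSiegel Cfsg.Agent.Lib.SpinTarget Cfsg.Agent.Lib.BRot Cfsg.Agent.Lib.BSec
  Cfsg.Agent.Lib.BRank1 Cfsg.Agent.Lib.BUpper Cfsg.Agent.Lib.OrthoOrder Cfsg.Agent.Lib.OrthoFinal Cfsg.Agent.Lib.OrthoSimple
open Cfsg.Agent.Lib.OrthoDihedral Cfsg.Agent.Lib.OrthoFourMinus Cfsg.Agent.Lib.QuadExt Cfsg.Agent.Lib.HermCount Cfsg.Agent.Lib.UnitaryBasic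
open Cfsg.Agent.Lib.SpinFinal (schur_of_equiv good_of finish trivial_lower odd_two_ne_zero hv Q_hv polar_hv)
open Cfsg.Agent.Lib.SpinLift (sg exists_section)
open Cfsg.Agent.Lib.OrthoChar (negEl negEl_apply)
open scoped commutatorElement

universe u

section Iso

variable {F K : Type u} [Field F] [Fintype F] [Field K] [Fintype K] [Algebra F K] [FiniteDimensional F K] {a b : F} {θ : K} {q : ℕ}
  (H : Data F K a b θ) (hF : Fintype.card F = q) (hK : Fintype.card K = q ^ 2) {r : ℕ}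

/-- The coordinates. -/
noncomputable def phiM (r : ℕ) : VB r F K ≃ₗ[F] ((Fin r ⊕ Fin r) ⊕ Fin 2 → F) where
  toFun v := Sum.elim v.1 (fun i => (psiEquiv H hF hK).symm v.2 (.inr i))
  map_add' u v := by
    funext k
    cases k <;> simp
  map_smul' c v := by
    funext k
    cases k <;> simp
  invFun u := (fun k => u (.inl k), psiEquiv H hF hK (Sum.elim (Sum.elim Fin.elim0 Fin.elim0) (fun i => u (.inr i))))
  left_inv v := by
    apply Prod.ext
    · rfl
    · show psiEquiv H hF hK _ = v.2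
      have : (Sum.elim (Sum.elim Fin.elim0 Fin.elim0) (fun i => (psiEquiv H hF hK).symm v.2 (.inr i)) : (Fin 0 ⊕ Fin 0) ⊕ Fin 2 → F) = (psiEquiv H hF hK).symm v.2 := by
        funext k
        rcases k with (k | k) | k
        · exact k.elim0
        · exact k.elim0
        · rfl
      simp only [Sum.elim_inr]
      rw [this, LinearEquiv.apply_symm_apply]
  right_inv u := by
    funext k
    rcases k with k | k
    · rfl
    · simp

lemma phiM_Q (r : ℕ) (v : VB r F K) : qMinus r a b (phiM H hF hK r v) = QV (QK H hF hK) v := by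
  rw [qMinus_apply, QV_apply, qPlus_apply]
  have e : QK H hF hK v.2 = qMinus 0 a b ((psiEquiv H hF hK).symm v.2) := by
    simp [QK]
  rw [e, qMinus_apply]
  simp [phiM, Cfsg.quadFormMinus, Cfsg.quadFormPlus]

lemma phiM_symm_Q (r : ℕ) (v : (Fin r ⊕ Fin r) ⊕ Fin 2 → F) : QV (QK H hF hK) ((phiM H hF hK r).symm v) = qMinus r a b v := by
  rw [← phiM_Q H hF hK, LinearEquiv.apply_symm_apply]

lemma hQ (r : ℕ) : Nondeg (QV (l := r) (QK H hF hK)) := nondeg_QV (QK_nondeg H hF hK)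

lemma hgen (r : ℕ) : genR (QV (l := r) (QK H hF hK)) = ⊤ :=
  genR_congr (phiM H hF hK r).symm (phiM_symm_Q H hF hK r) (genR_qMinus a b H.aniso r)

lemma hfr (hr : 2 ≤ r) : Nonempty (Frame (QV (l := r) (QK H hF hK))) := by
  obtain ⟨n, rfl⟩ : ∃ n, r = n + 2 := ⟨r - 2, by omega⟩
  obtain ⟨fr⟩ := frameMinus a b H.aniso n
  exact ⟨frameCongr (phiM H hF hK (n + 2)).symm (phiM_symm_Q H hF hK (n + 2)) fr⟩

lemma hcomm (hr : 2 ≤ r) : commutator (OG (QV (l := r) (QK H hF hK))) = siegelE (QV (l := r) (QK H hF hK)) :=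
  omega_eq_E (hQ H hF hK r) (hgen H hF hK r) (hfr H hF hK hr).some

/-- Transport of the Siegel group along an isometry. -/
lemma congr_mem_siegelE {V V' : Type*} [AddCommGroup V] [Module F V] [AddCommGroup V'] [Module F V'] {Q : QuadraticForm F V} {Q' : QuadraticForm F V'}
    (φ : V ≃ₗ[F] V') (h : ∀ v, Q' (φ v) = Q v) {g : OG Q} (hg : g ∈ siegelE Q) : OG.congr φ h g ∈ siegelE Q' := by
  induction hg using closure_induction with
  | mem g hg =>
    obtain ⟨e, y, hs⟩ := hg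
    exact subset_closure ⟨_, _, isSiegel_congr hs φ h⟩
  | one =>
    rw [map_one]
    exact one_mem _
  | mul a' b' _ _ ha hb =>
    rw [map_mul]
    exact mul_mem ha hb
  | inv a' _ ha =>
    rw [map_inv]
    exact inv_mem ha

/-- When minus one lies in the Siegel group. -/
lemma neg_mem_imp (hodd : Odd (Fintype.card F)) (hr : 2 ≤ r) (hn : negEl (QV (l := r) (QK H hF hK)) ∈ siegelE (QV (l := r) (QK H hF hK))) :
    Even r ∧ Fintype.card F % 4 = 3 := by
  obtain ⟨n, rfl⟩ : ∃ n, r = n + 2 := ⟨r - 2, by omega⟩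
  have h1 := congr_mem_siegelE (phiM H hF hK (n + 2)) (phiM_Q H hF hK (n + 2)) hn
  have h2 : OG.congr (phiM H hF hK (n + 2)) (phiM_Q H hF hK (n + 2)) (negEl (QV (l := n + 2) (QK H hF hK))) = negEl (qMinus (n + 2) a b) := by
    apply OG_ext
    intro v
    obtain ⟨u, rfl⟩ : ∃ u, v = phiM H hF hK (n + 2) u := ⟨(phiM H hF hK (n + 2)).symm v, by simp⟩
    rw [OG.congr_apply, negEl_apply, negEl_apply, map_neg]
  rw [h2] at h1
  exact (Cfsg.Agent.Lib.PgoFamilies.neg_minus hodd a b H.aniso n).mp h1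

include hK in
/-- A root of `-1` of norm one, acting as `-1` on `W`. -/
lemma exists_d4 (h3 : q % 4 = 3) : ∃ d : K, ∃ hd : d ≠ 0, nrm q d = 1 ∧ d ^ 2 = -1 ∧ borEl d hd 0 * borEl d hd 0 = negS 1 := by
  have h4 : 4 ∣ q + 1 := by omega
  obtain ⟨d, hd, hn, ho⟩ := exists_nrm hK 4 h4
  have hd4 : d ^ 4 = 1 := by
    have := pow_orderOf_eq_one d
    rwa [ho] at this
  have hd2 : d ^ 2 ≠ 1 := by
    intro h
    have h5 := orderOf_dvd_of_pow_eq_one h
    rw [ho] at h5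
    omega
  have hd3 : d ^ 2 = -1 := by
    have h5 : (d ^ 2 - 1) * (d ^ 2 + 1) = 0 := by linear_combination hd4
    rcases mul_eq_zero.mp h5 with h6 | h6
    · exact absurd (sub_eq_zero.mp h6) hd2
    · exact eq_neg_of_add_eq_zero_left h6
  refine ⟨d, hd, hn, hd3, ?_⟩
  have hinv : d⁻¹ * d⁻¹ = -1 := by
    field_simp
    linear_combination hd3
  have hd3' : d * d = -1 := by linear_combination hd3
  apply sl2_ext <;> simp [mul_apply2, hinv, hd3']

variable {i₀ : Fin r}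

lemma rot_embO (g : OG (QK H hF hK)) (m : OG (qPlus r F)) : Commute (rotV (QK_nondeg H hF hK) g) (embO (QK H hF hK) m) := by
  show _ * _ = _ * _
  apply OG_ext
  intro v
  simp only [Subgroup.coe_mul, LinearEquiv.mul_apply]
  apply Prod.ext
  · rw [rotV_fst, embO_apply, embO_apply, rotV_fst]
  · rw [rotV_snd, embO_apply, embO_apply, rotV_snd]

/-- The element `-1` as a product of an element of the hyperbolic part and of a rotation. -/
lemma neg_eq (he : Even r) {d : K} (hd : d ≠ 0) (hn : nrm q d = 1) (hd3 : d ^ 2 = -1) (t : Fin r → Bool)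
    (hd1 : ∏ k : Fin r, (-1 : F) = 1) :
    embO (QK H hF hK) (rhoT t (diagSL (fun _ => (-1 : F)) hd1)) * phiK H hF hK i₀ (borEl d hd 0) = negEl (QV (l := r) (QK H hF hK)) := by
  rw [phiK_diag H hF hK i₀ d hd hn]
  apply OG_ext
  intro v
  simp only [Subgroup.coe_mul, LinearEquiv.mul_apply]
  rw [embO_apply, negEl_apply]
  apply Prod.ext
  · funext k
    dsimp only
    rw [Cfsg.Agent.Lib.SpinOmega.rhoT_diag, rotV_fst]
    have e : Cfsg.Agent.Lib.SpinOmega.dl t (fun _ : Fin r => (-1 : F)) k = -1 := by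
      unfold Cfsg.Agent.Lib.SpinOmega.dl
      split_ifs
      · rfl
      · simp
    rw [e]
    simp
  · dsimp only
    rw [rotV_snd]
    show d ^ 2 * v.2 = _
    rw [hd3]
    simp

lemma neg_mem_of (he : Even r) (hr : 2 ≤ r) (h3 : q % 4 = 3) : negEl (QV (l := r) (QK H hF hK)) ∈ siegelE (QV (l := r) (QK H hF hK)) := by
  obtain ⟨d, hd, hn, hd3, -⟩ := exists_d4 hK h3
  have hd1 : ∏ k : Fin r, (-1 : F) = 1 := by
    rw [Finset.prod_const, Finset.card_fin]
    exact he.neg_one_pow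
  have i₀ : Fin r := ⟨0, by omega⟩
  rw [← neg_eq H hF hK (i₀ := i₀) he hd hn hd3 (fun _ => false) hd1]
  exact mul_mem (embO_mem _ (rhoT_mem hr _ _)) (phiK_mem H hF hK i₀ _)

end Iso

section Omega

variable {F K : Type u} [Field F] [Fintype F] [Field K] [Fintype K] [Algebra F K] [FiniteDimensional F K] {a b : F} {θ : K} {q : ℕ}
  (H : Data F K a b θ) (hF : Fintype.card F = q) (hK : Fintype.card K = q ^ 2) {r : ℕ}
  {Γ' : Type*} [Group Γ'] [Finite Γ'] {σ : Γ' →* OG (QV (l := r) (QK H hF hK))}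

set_option maxHeartbeats 1000000 in
/-- A lift of minus one. -/
theorem exists_omega (hc : σ.ker ≤ center Γ') (hrg : siegelE (QV (l := r) (QK H hF hK)) ≤ σ.range) (hl : 3 ≤ r) (i₀ : Fin r)
    {x : Fin r ⊕ Fin r → Fin r ⊕ Fin r → F → Γ'} {y : Fin r ⊕ Fin r → K → Γ'} {ψ : SL2 K →* Γ'}
    (hs : SysB x y (QK H hF hK)) (hρ : ActB σ x y) (hψ : ∀ m, σ (ψ m) = phiK H hF hK i₀ m)
    (hψm : ∀ m, ψ m ∈ QB x y (Finset.univ : Finset (Fin r ⊕ Fin r))) (her : Even r) (hg : Good (Fin r) F) (h3 : q % 4 = 3) :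
    ∃ ω ∈ QB x y (Finset.univ : Finset (Fin r ⊕ Fin r)), σ ω = negEl (QV (l := r) (QK H hF hK)) ∧ ω * ω = ψ (negS 1) := by
  classical
  obtain ⟨d, hd, hn, hd3, hdd⟩ := exists_d4 hK h3
  have hd1 : ∏ k : Fin r, (-1 : F) = 1 := by
    rw [Finset.prod_const, Finset.card_fin]
    exact her.neg_one_pow
  obtain ⟨t₀⟩ : Nonempty (Fin r → Bool) := ⟨fun _ => false⟩
  have hrr : ∀ g, ((embO (QK H hF hK)).comp (rhoT t₀)) g ∈ σ.range :=
    fun g => hrg (embO_mem _ (rhoT_mem (by omega) t₀ g))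
  have hsec := exists_section hg σ hc ((embO (QK H hF hK)).comp (rhoT t₀)) hrr
  rcases hsec with ⟨f, hf⟩
  have hfE : ∀ {i j : Fin r}, i ≠ j → ∀ c, f (E i j c) = x (sg t₀ i) (sg t₀ j) c :=
    fun h c => section_E hl σ hc hs.hD hρ.hx t₀ hf h c
  set D₀ := ψ (borEl d hd 0) with hD₀
  have hσD : σ D₀ = rotV (QK_nondeg H hF hK) (mulEl H hF hK (d ^ 2) (nrm_sq_of hn)) := by
    rw [hD₀, hψ, phiK_diag H hF hK i₀ d hd hn]
  have hDx : ∀ {a' b' : Fin r ⊕ Fin r}, Ind a' b' → ∀ c, Commute D₀ (x a' b' c) := by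
    intro a' b' h c
    obtain ⟨m, hm1, hm2⟩ := third hl a' b'
    have e := hs.hD.comm3 hm1 hm2 h c 1
    rw [mul_one] at e
    rw [← e]
    apply comm_of_lifts σ hc
    · rw [hσD, hρ.hx hm1]
      exact rot_XV _ _ _ _ _
    · rw [hσD, hρ.hx hm2]
      exact rot_XV _ _ _ _ _
  have hfQ : ∀ m, f m ∈ QB x y (Finset.univ : Finset (Fin r ⊕ Fin r)) ∧ Commute D₀ (f m) := by
    intro m
    have : Nontrivial (Fin r) := Fin.nontrivial_iff_two_le.mpr (by omega)
    refine Cfsg.Agent.Lib.ClassicalSL.transvection_induction (fun m => f m ∈ QB x y (Finset.univ : Finset (Fin r ⊕ Fin r)) ∧ Commute D₀ (f m)) ?_ ?_ m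
    · intro i j h c
      rw [← E_of_ne h, hfE h]
      have hI := Cfsg.Agent.Lib.SpinLift.sg_ind t₀ h
      exact ⟨x_mem_QB (Finset.mem_univ _) (Finset.mem_univ _) hI c, hDx hI c⟩
    · intro A B hA hB
      rw [map_mul]
      exact ⟨mul_mem hA.1 hB.1, hA.2.mul_right hB.2⟩
  set A₀ := diagSL (fun _ : Fin r => (-1 : F)) hd1 with hA₀
  have hAA : A₀ * A₀ = 1 := by
    apply Subtype.ext
    show Matrix.diagonal _ * Matrix.diagonal _ = 1
    rw [Matrix.diagonal_mul_diagonal, ← Matrix.diagonal_one]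
    congr 1
    funext k
    simp
  refine ⟨f A₀ * D₀, mul_mem (hfQ A₀).1 (hψm _), ?_, ?_⟩
  · rw [map_mul, hf, hD₀, hψ]
    exact neg_eq H hF hK her hd hn hd3 t₀ hd1
  · have e := (hfQ A₀).2.eq
    calc f A₀ * D₀ * (f A₀ * D₀) = f A₀ * (D₀ * f A₀) * D₀ := by group
      _ = f A₀ * (f A₀ * D₀) * D₀ := by rw [e]
      _ = f (A₀ * A₀) * ψ (borEl d hd 0 * borEl d hd 0) := by
          rw [map_mul, map_mul, hD₀]
          group
      _ = ψ (negS 1) := by rw [hAA, hdd, map_one, one_mul]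

end Omega

section Upper

variable {F K : Type u} [Field F] [Fintype F] [Field K] [Fintype K] [Algebra F K] [FiniteDimensional F K] {a b : F} {θ : K} {q : ℕ}
  (H : Data F K a b θ) (hF : Fintype.card F = q) (hK : Fintype.card K = q ^ 2) {r : ℕ}
  {Γ : Type u} [Group Γ] [Finite Γ] {σ₀ : Γ →* POV r (QK H hF hK)} (hσ : IsStemExtension σ₀)

lemma pow_mod_four_even {m : ℕ} (h3 : m % 4 = 3) {n : ℕ} (he : Even n) : m ^ n % 4 = 1 := by
  obtain ⟨k, rfl⟩ := he
  rw [← two_mul, pow_mul, Nat.pow_mod]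
  have : m ^ 2 % 4 = 1 := by
    rw [Nat.pow_mod, h3]
  rw [this, one_pow]
  rfl

include hσ in
lemma omega_ker {ω : Pb σ₀} (hω : sgP σ₀ ω = negEl (QV (l := r) (QK H hF hK))) : fstP σ₀ ω ∈ σ₀.ker := by
  have h3 := (mem_Pb σ₀).mp ω.2
  rw [MonoidHom.mem_ker]
  show σ₀ ω.1.1 = 1
  rw [h3]
  apply (QuotientGroup.eq_one_iff _).mpr
  apply scalar_center (l := (-1 : F))
  intro v
  have h : ((ω.1.2 : OG (QV (l := r) (QK H hF hK))) : VB r F K ≃ₗ[F] VB r F K) v = ((sgP σ₀ ω : OG (QV (l := r) (QK H hF hK))) : VB r F K ≃ₗ[F] VB r F K) v := rfl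
  rw [h, hω, negEl_apply]
  simp

set_option maxHeartbeats 1000000 in
include hσ in
/-- The common part of the upper bound. -/
theorem prelim (hl : 3 ≤ r) (i₀ : Fin r) :
    ∃ (x : Fin r ⊕ Fin r → Fin r ⊕ Fin r → F → Pb σ₀) (y : Fin r ⊕ Fin r → K → Pb σ₀) (ψ : SL2 K →* Pb σ₀),
      SysB x y (QK H hF hK) ∧ ActB (sgP σ₀) x y ∧ (∀ m, sgP σ₀ (ψ m) = phiK H hF hK i₀ m) ∧
      (∀ m, ψ m ∈ QB x y (Finset.univ : Finset (Fin r ⊕ Fin r))) ∧
      (∀ {k : Γ}, k ∈ σ₀.ker → ∃ p ∈ QB x y (Finset.univ : Finset (Fin r ⊕ Fin r)), fstP σ₀ p = k ∧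
        (sgP σ₀ p = 1 ∨ sgP σ₀ p = negEl (QV (l := r) (QK H hF hK)))) ∧
      (∀ {p : Pb σ₀}, p ∈ QB x y (Finset.univ : Finset (Fin r ⊕ Fin r)) → sgP σ₀ p = 1 → fstP σ₀ p = 1 ∨ fstP σ₀ p = fstP σ₀ (ψ (negS 1))) ∧
      sgP σ₀ (ψ (negS 1)) = 1 ∧ ψ (negS 1) * ψ (negS 1) = 1 := by
  classical
  haveI : Finite (SgV r (QK H hF hK)) := Cfsg.Agent.Lib.OMinD.finite_E _
  have hc := sgP_ker hσ (l := r)
  have hdata := rank_data H hF hK hc (sgP_range hσ) hl i₀
  obtain ⟨x, y, ψ, hs, hρ, hψ, hψm, hker⟩ := hdata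
  have hQ' := hQ H hF hK r
  obtain ⟨fr⟩ := hfr H hF hK (r := r) (by omega)
  refine ⟨x, y, ψ, hs, hρ, hψ, hψm, ?_, ?_, ?_, ?_⟩
  · intro k hk
    obtain ⟨p, hp, hpk, c, hc2, hcv⟩ := K_lift hσ hρ hQ' fr (QK_aniso H hF hK) hk
    refine ⟨p, hp, hpk, ?_⟩
    rcases sq_eq_one_iff.mp hc2 with rfl | rfl
    · left
      apply OG_ext
      intro v
      rw [hcv, one_smul]
      rfl
    · right
      apply OG_ext
      intro v
      rw [hcv, neg_smul, one_smul, negEl_apply]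
  · intro p hp h1
    rcases hker p hp h1 with rfl | rfl
    · left
      exact map_one _
    · right
      rfl
  · rw [hψ]
    have h1 : phi0 H hF hK (negS 1) = 1 := by
      rw [phi0_eq_one_iff]
      exact ⟨-1, by ring, by simp⟩
    show embH (QK_nondeg H hF hK) i₀ (phi0 H hF hK (negS 1)) = 1
    rw [h1, map_one]
  · have hnn : (negS 1 : SL2 K) * negS 1 = 1 := by
      apply Subtype.ext
      simp
    rw [← map_mul, hnn, map_one]

include hσ in
lemma fst_ker {z : Pb σ₀} (hz1 : sgP σ₀ z = 1) : fstP σ₀ z ∈ σ₀.ker := by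
  have h5 : z.1.2 = 1 := Subtype.ext hz1
  have h3 := (mem_Pb σ₀).mp z.2
  rw [MonoidHom.mem_ker]
  show σ₀ z.1.1 = 1
  rw [h3, h5, map_one]

lemma surj_of_pow {G : Type*} [Group G] {n : ℕ} [NeZero n] (y : G) (hy : y ^ n = 1) (h : ∀ g, ∃ k : ℕ, g = y ^ k) :
    ∃ π : Multiplicative (ZMod n) →* G, Function.Surjective π := by
  obtain ⟨π, hπ⟩ := Cfsg.Agent.Lib.SpinSurj.zmod_hom y hy
  refine ⟨π, fun g => ?_⟩
  obtain ⟨k, rfl⟩ := h g
  exact ⟨_, hπ k⟩

set_option maxHeartbeats 1000000 in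
include hσ in
/-- The case of even characteristic. -/
theorem class_even (hl : 3 ≤ r) (hev : Even q) {k : Γ} (hk : k ∈ σ₀.ker) : k = 1 := by
  have hi : Fin r := ⟨0, by omega⟩
  have hdata := prelim H hF hK hσ hl hi
  obtain ⟨x, y, ψ, hs, hρ, hψ, hψm, hlift, hone, hz1, hz2⟩ := hdata
  have hevF : Even (Fintype.card F) := hF ▸ hev
  have hevK : Even (Fintype.card K) := by
    rw [hK]
    exact hev.pow_of_ne_zero (by norm_num)
  have hz3 : ψ (negS 1) = 1 := by
    rw [Cfsg.Agent.Lib.SpinSurj.negS_one_of_even hevK, map_one]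
  have hnegE : negEl (QV (l := r) (QK H hF hK)) = 1 := by
    apply OG_ext
    intro v
    rw [negEl_apply]
    have h3 : (-1 : F) = 1 := Cfsg.Agent.Lib.SpinSurj.neg_one_eq_one_of_even hevF
    have h4 : -v = (-1 : F) • v := by simp
    rw [h4, h3, one_smul]
    rfl
  obtain ⟨p, hp, rfl, h1⟩ := hlift hk
  rw [hnegE, or_self] at h1
  have := hone hp h1
  rw [hz3, map_one, or_self] at this
  exact this

set_option maxHeartbeats 1000000 in
include hσ in
/-- The case where minus one is not in the group. -/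
theorem class_two (hl : 3 ≤ r) (hoddF : Odd (Fintype.card F)) (hcase : ¬ (Even r ∧ q % 4 = 3)) :
    ∃ w ∈ σ₀.ker, w ^ 2 = 1 ∧ ∀ k ∈ σ₀.ker, k = 1 ∨ k = w := by
  have hi : Fin r := ⟨0, by omega⟩
  have hdata := prelim H hF hK hσ hl hi
  obtain ⟨x, y, ψ, hs, hρ, hψ, hψm, hlift, hone, hz1, hz2⟩ := hdata
  refine ⟨fstP σ₀ (ψ (negS 1)), fst_ker H hF hK hσ hz1, ?_, ?_⟩
  · rw [pow_two, ← (fstP σ₀).map_mul, hz2, map_one]
  · intro k hk
    obtain ⟨p, hp, rfl, h1⟩ := hlift hk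
    rcases h1 with h1 | h1
    · exact hone hp h1
    · exfalso
      have h5 : negEl (QV (l := r) (QK H hF hK)) ∈ siegelE (QV (l := r) (QK H hF hK)) := h1 ▸ sgP_mem σ₀ p
      have h6 := neg_mem_imp H hF hK hoddF (by omega) h5
      rw [hF] at h6
      exact hcase h6

set_option maxHeartbeats 1000000 in
include hσ in
/-- The case where minus one is in the group. -/
theorem class_four (hl : 3 ≤ r) (her : Even r) (hg : Good (Fin r) F) (h3 : q % 4 = 3) :
    ∃ w ∈ σ₀.ker, w ^ 4 = 1 ∧ ∀ k ∈ σ₀.ker, ∃ n : ℕ, k = w ^ n := by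
  haveI : Finite (SgV r (QK H hF hK)) := Cfsg.Agent.Lib.OMinD.finite_E _
  have hi : Fin r := ⟨0, by omega⟩
  have hdata := prelim H hF hK hσ hl hi
  obtain ⟨x, y, ψ, hs, hρ, hψ, hψm, hlift, hone, hz1, hz2⟩ := hdata
  have homega := exists_omega H hF hK (sgP_ker hσ) (sgP_range hσ) hl hi hs hρ hψ hψm her hg h3
  obtain ⟨ω, hωQ, hω1, hω2⟩ := homega
  have e2 : fstP σ₀ ω ^ 2 = fstP σ₀ (ψ (negS 1)) := by
    rw [pow_two, ← (fstP σ₀).map_mul, hω2]
  have e4 : fstP σ₀ (ψ (negS 1)) ^ 2 = 1 := by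
    rw [pow_two, ← (fstP σ₀).map_mul, hz2, map_one]
  refine ⟨fstP σ₀ ω, omega_ker H hF hK hσ hω1, ?_, ?_⟩
  · rw [show (4 : ℕ) = 2 * 2 from rfl, pow_mul, e2, e4]
  · intro k hk
    obtain ⟨p, hp, rfl, h1⟩ := hlift hk
    rcases h1 with h1 | h1
    · rcases hone hp h1 with e | e
      · exact ⟨0, by rw [e, pow_zero]⟩
      · exact ⟨2, by rw [e, e2]⟩
    · have h5 : sgP σ₀ (p * ω⁻¹) = 1 := by
        rw [(sgP σ₀).map_mul, (sgP σ₀).map_inv, h1, hω1, mul_inv_cancel]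
      rcases hone (mul_mem hp (inv_mem hωQ)) h5 with e | e
      · refine ⟨1, ?_⟩
        rw [pow_one]
        rw [(fstP σ₀).map_mul, (fstP σ₀).map_inv, mul_inv_eq_one] at e
        exact e
      · refine ⟨3, ?_⟩
        rw [show (3 : ℕ) = 2 + 1 from rfl, pow_add, e2, pow_one]
        rw [(fstP σ₀).map_mul, (fstP σ₀).map_inv, mul_inv_eq_iff_eq_mul] at e
        exact e

include hσ in
/-- The upper bound. -/
theorem upper_minus (hl : 3 ≤ r) : ∃ π : Multiplicative (ZMod (Nat.gcd 4 (q ^ (r + 1) + 1))) →* σ₀.ker, Function.Surjective π := by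
  have hq2 : 2 ≤ q := two_le_q hK
  by_cases hq2' : Even q
  · have e1 : Nat.gcd 4 (q ^ (r + 1) + 1) = 1 := by
      have h1 : Even (q ^ (r + 1)) := hq2'.pow_of_ne_zero (by omega)
      have h2 : (q ^ (r + 1) + 1) % 4 = 1 ∨ (q ^ (r + 1) + 1) % 4 = 3 := by
        rcases h1 with ⟨k, hk⟩
        omega
      rw [Nat.gcd_rec]
      rcases h2 with h2 | h2 <;> rw [h2] <;> rfl
    rw [e1]
    refine ⟨1, ?_⟩
    rintro ⟨k, hk⟩
    refine ⟨1, ?_⟩
    apply Subtype.ext
    exact (class_even H hF hK hσ hl hq2' hk).symm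
  · have hqo : Odd q := Nat.not_even_iff_odd.mp hq2'
    have hoddF : Odd (Fintype.card F) := hF ▸ hqo
    by_cases hcase : Even r ∧ q % 4 = 3
    · obtain ⟨her, h3⟩ := hcase
      have e1 : Nat.gcd 4 (q ^ (r + 1) + 1) = 4 := by
        have h2 := Cfsg.Agent.Lib.SpinSurj.pow_mod_four_three (l := r + 1) h3 her.add_one
        have h4 : (q ^ (r + 1) + 1) % 4 = 0 := by omega
        rw [Nat.gcd_rec, h4]
        rfl
      rw [e1]
      have hr4 : 4 ≤ r := by
        rcases her with ⟨k, hk⟩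
        omega
      have hg : Good (Fin r) F := good_of hr4 (fun h => by
        have h5 := h.2
        rw [hF] at h5
        omega)
      obtain ⟨w, hw, hw4, hall⟩ := class_four H hF hK hσ hl her hg h3
      apply surj_of_pow (⟨w, hw⟩ : σ₀.ker) (Subtype.ext hw4)
      rintro ⟨k, hk⟩
      obtain ⟨n, hn⟩ := hall k hk
      exact ⟨n, Subtype.ext hn⟩
    · have e1 : Nat.gcd 4 (q ^ (r + 1) + 1) = 2 := by
        have h4 : (q ^ (r + 1) + 1) % 4 = 2 := by
          have hq4 : q % 4 = 1 ∨ q % 4 = 3 := by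
            rcases hqo with ⟨k, rfl⟩
            omega
          rcases hq4 with h1 | h3
          · have h2 := Cfsg.Agent.Lib.SpinSurj.pow_mod_four_one (l := r + 1) h1
            omega
          · have hro : Odd r := by
              rw [← Nat.not_even_iff_odd]
              exact fun he => hcase ⟨he, h3⟩
            have h2 := pow_mod_four_even h3 (n := r + 1) hro.add_one
            omega
        rw [Nat.gcd_rec, h4]
        rfl
      rw [e1]
      obtain ⟨w, hw, hw2, hall⟩ := class_two H hF hK hσ hl hoddF hcase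
      apply surj_of_pow (⟨w, hw⟩ : σ₀.ker) (Subtype.ext hw2)
      rintro ⟨k, hk⟩
      rcases hall k hk with rfl | rfl
      · exact ⟨0, Subtype.ext (pow_zero _).symm⟩
      · exact ⟨1, Subtype.ext (pow_one _).symm⟩

end Upper

section Main

variable {F K : Type u} [Field F] [Fintype F] [Field K] [Fintype K] [Algebra F K] [FiniteDimensional F K] {a b : F} {θ : K} {q : ℕ}
  (H : Data F K a b θ) (hF : Fintype.card F = q) (hK : Fintype.card K = q ^ 2) {r : ℕ}

/-- The lower bound. -/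
lemma exists_cover (h2 : (2 : F) ≠ 0) (hl : 3 ≤ r) :
    ∃ (Γ : Type u) (_ : Group Γ) (_ : Finite Γ) (σ : Γ →* POV r (QK H hF hK)), IsStemExtension σ ∧
      2 * Nat.card (center (SgV r (QK H hF hK))) ≤ Nat.card σ.ker := by
  haveI : Finite K := inferInstance
  haveI : Finite (VB r F K) := inferInstanceAs (Finite ((Fin r ⊕ Fin r → F) × K))
  have h01 : (⟨0, by omega⟩ : Fin r) ≠ ⟨1, by omega⟩ := by simp [Fin.ext_iff]
  have h12 : (⟨1, by omega⟩ : Fin r) ≠ ⟨2, by omega⟩ := by simp [Fin.ext_iff]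
  have h02 : (⟨0, by omega⟩ : Fin r) ≠ ⟨2, by omega⟩ := by simp [Fin.ext_iff]
  have hb : ∀ i : Fin r, QV (QK H hF hK) ((hv i, 0) : VB r F K) = 1 := by
    intro i
    rw [QV_apply]
    simp [Q_hv]
  have hab : ∀ {i j : Fin r}, i ≠ j → polar (QV (QK H hF hK)) ((hv i, 0) : VB r F K) (hv j, 0) = 0 := by
    intro i j hij
    rw [polar_QV]
    simp [polar_hv hij]
  exact Cfsg.Agent.Lib.SpinCliff.exists_stem (hQ H hF hK r) (hfr H hF hK (by omega)).some h2 (hcomm H hF hK (by omega)) (hb _) (hb _) (hb _)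
    (hab h01) (hab h12) (hab h02)

lemma center_two (h2 : (2 : F) ≠ 0) (hr : 1 ≤ r) (hn : negEl (QV (l := r) (QK H hF hK)) ∈ SgV r (QK H hF hK)) :
    2 ≤ Nat.card (center (SgV r (QK H hF hK))) := by
  haveI : Finite (SgV r (QK H hF hK)) := Cfsg.Agent.Lib.OMinD.finite_E _
  have hc : (⟨_, hn⟩ : SgV r (QK H hF hK)) ∈ center (SgV r (QK H hF hK)) := by
    apply scalar_center (l := (-1 : F))
    intro v
    show ((negEl (QV (l := r) (QK H hF hK)) : OG (QV (l := r) (QK H hF hK))) : VB r F K ≃ₗ[F] VB r F K) v = _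
    rw [negEl_apply]
    simp
  have hne : (⟨_, hc⟩ : center (SgV r (QK H hF hK))) ≠ 1 := by
    intro h
    have h3 := congrArg (fun g : center (SgV r (QK H hF hK)) => (((g.1.1 : OG (QV (l := r) (QK H hF hK))) : VB r F K ≃ₗ[F] VB r F K) (es (Sum.inl ⟨0, hr⟩), 0)).1 (Sum.inl ⟨0, hr⟩)) h
    change (((negEl (QV (l := r) (QK H hF hK)) : OG (QV (l := r) (QK H hF hK))) : VB r F K ≃ₗ[F] VB r F K) (es (Sum.inl ⟨0, hr⟩), 0)).1 (Sum.inl ⟨0, hr⟩) =
      (es (Sum.inl ⟨0, hr⟩) : Fin r ⊕ Fin r → F) (Sum.inl ⟨0, hr⟩) at h3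
    rw [negEl_apply] at h3
    simp [es] at h3
    apply h2
    linear_combination -h3
  have hnt : Nontrivial (center (SgV r (QK H hF hK))) := ⟨⟨⟨_, hc⟩, 1, hne⟩⟩
  exact Finite.one_lt_card_iff_nontrivial.mpr hnt

/-- The multiplier. -/
theorem mult_minus (hl : 3 ≤ r) :
    HasSchurMultiplier (POV r (QK H hF hK)) (Multiplicative (ZMod (Nat.gcd 4 (q ^ (r + 1) + 1)))) := by
  have hq2 : 2 ≤ q := two_le_q hK
  haveI : Finite (SgV r (QK H hF hK)) := Cfsg.Agent.Lib.OMinD.finite_E _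
  have hup : ∀ (Γ : Type u) [Group Γ] [Finite Γ] (σ : Γ →* POV r (QK H hF hK)), IsStemExtension σ →
      ∃ π : Multiplicative (ZMod (Nat.gcd 4 (q ^ (r + 1) + 1))) →* σ.ker, Function.Surjective π :=
    fun Γ _ _ σ hσ => upper_minus H hF hK hσ hl
  refine ⟨?_, hup⟩
  by_cases hq2' : Even q
  · have e1 : Nat.gcd 4 (q ^ (r + 1) + 1) = 1 := by
      have h1 : Even (q ^ (r + 1)) := hq2'.pow_of_ne_zero (by omega)
      have h2 : (q ^ (r + 1) + 1) % 4 = 1 ∨ (q ^ (r + 1) + 1) % 4 = 3 := by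
        rcases h1 with ⟨k, hk⟩
        omega
      rw [Nat.gcd_rec]
      rcases h2 with h2 | h2 <;> rw [h2] <;> rfl
    rw [e1]
    haveI : Subsingleton (Multiplicative (ZMod 1)) := inferInstanceAs (Subsingleton (ZMod 1))
    exact trivial_lower
  · have hqo : Odd q := Nat.not_even_iff_odd.mp hq2'
    have hoddF : Odd (Fintype.card F) := hF ▸ hqo
    have h2 : (2 : F) ≠ 0 := odd_two_ne_zero hoddF
    obtain ⟨Γ, i1, i2, σ, hσ, hc⟩ := exists_cover H hF hK (r := r) h2 hl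
    obtain ⟨π, hπ⟩ := hup Γ σ hσ
    have hne : NeZero (Nat.gcd 4 (q ^ (r + 1) + 1)) := ⟨Nat.gcd_ne_zero_left (by norm_num)⟩
    haveI : Finite (Multiplicative (ZMod (Nat.gcd 4 (q ^ (r + 1) + 1)))) :=
      inferInstanceAs (Finite (ZMod (Nat.gcd 4 (q ^ (r + 1) + 1))))
    refine ⟨Γ, i1, i2, σ, hσ, finish ?_ hπ⟩
    have hcard : Nat.card (Multiplicative (ZMod (Nat.gcd 4 (q ^ (r + 1) + 1)))) = Nat.gcd 4 (q ^ (r + 1) + 1) := by
      rw [show Nat.card (Multiplicative (ZMod (Nat.gcd 4 (q ^ (r + 1) + 1)))) = Nat.card (ZMod (Nat.gcd 4 (q ^ (r + 1) + 1))) from rfl, Nat.card_zmod]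
    rw [hcard]
    by_cases hcase : Even r ∧ q % 4 = 3
    · obtain ⟨her, h3⟩ := hcase
      have e1 : Nat.gcd 4 (q ^ (r + 1) + 1) = 4 := by
        have h2 := Cfsg.Agent.Lib.SpinSurj.pow_mod_four_three (l := r + 1) h3 her.add_one
        have h4 : (q ^ (r + 1) + 1) % 4 = 0 := by omega
        rw [Nat.gcd_rec, h4]
        rfl
      rw [e1]
      have h5 := center_two H hF hK h2 (r := r) (by omega) (neg_mem_of H hF hK her (by omega) h3)
      omega
    · have e1 : Nat.gcd 4 (q ^ (r + 1) + 1) = 2 := by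
        have h4 : (q ^ (r + 1) + 1) % 4 = 2 := by
          have hq4 : q % 4 = 1 ∨ q % 4 = 3 := by
            rcases hqo with ⟨k, rfl⟩
            omega
          rcases hq4 with h1 | h3
          · have h2 := Cfsg.Agent.Lib.SpinSurj.pow_mod_four_one (l := r + 1) h1
            omega
          · have hro : Odd r := by
              rw [← Nat.not_even_iff_odd]
              exact fun he => hcase ⟨he, h3⟩
            have h2 := pow_mod_four_even h3 (n := r + 1) hro.add_one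
            omega
        rw [Nat.gcd_rec, h4]
        rfl
      rw [e1]
      have : 0 < Nat.card (center (SgV r (QK H hF hK))) := Nat.card_pos
      omega

/-- `PΩ` in the statement and the quotient of the Siegel group. -/
noncomputable def poEquiv (hl : 2 ≤ r) :
    Cfsg.POmega F (Cfsg.quadFormMinus r F a b) ≃* POV r (QK H hF hK) :=
  quotCenterEquiv ((isoOG (Cfsg.quadFormMinus r F a b) (qMinus r a b) (fun v => (qMinus_apply r a b v).symm)).trans
    (OG.congr (phiM H hF hK r) (phiM_Q H hF hK r)).symm) (SgV r (QK H hF hK)) (hcomm H hF hK hl)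

end Main

/-- The final theorem. -/
theorem main_minus {F : Type u} [Field F] [Fintype F] {q : ℕ} (hF : Fintype.card F = q) (r : ℕ) (hr : 3 ≤ r) (a b : F)
    (hab : ∀ z₁ z₂ : F, z₁ ^ 2 + a * z₁ * z₂ + b * z₂ ^ 2 = 0 → z₁ = 0 ∧ z₂ = 0) :
    HasCyclicSchurMultiplier (Cfsg.POmega F (Cfsg.quadFormMinus r F a b)) (Nat.gcd 4 (q ^ (r + 1) + 1)) := by
  obtain ⟨K, _, _, _, θ, hK, H⟩ := exists_data hF a b hab
  haveI : FiniteDimensional F K := Module.Finite.of_finite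
  exact schur_of_equiv (poEquiv H hF hK (by omega)) (mult_minus H hF hK hr)

end Cfsg.Agent.Lib.BMinus
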