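import Mathlib
import Cfsg.Agent.Lib.BUpper

/-!
# The Schur multipliers of the odd-dimensional orthogonal groups
-/

set_option autoImplicit false
set_option linter.unusedSectionVars false
set_option linter.unusedVariables false

namespace Cfsg.Agent.Lib.BOdd

open Subgroup QuadraticMap Cfsg Cfsg.Agent.Lib.OrthoBasic Cfsg.Agent.Lib.OrthoSiegel Cfsg.Agent.Lib.OrthoGen
  Cfsg.Agent.Lib.OrthoCount Cfsg.Agent.Lib.OrthoOrder Cfsg.Agent.Lib.OrthoSimple Cfsg.Agent.Lib.OrthoFinal Cfsg.Agent.Lib.StA Cfsg.Agent.Lib.StK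
  Cfsg.Agent.Lib.StMain Cfsg.Agent.Lib.SL2Core Cfsg.Agent.Lib.SL2Bor Cfsg.Agent.Lib.SpinSys
  Cfsg.Agent.Lib.SpinTarget Cfsg.Agent.Lib.BSys Cfsg.Agent.Lib.BCell Cfsg.Agent.Lib.BTarget Cfsg.Agent.Lib.BKer Cfsg.Agent.Lib.BLift
  Cfsg.Agent.Lib.BRank1 Cfsg.Agent.Lib.BGenS Cfsg.Agent.Lib.BUpper
open Cfsg.Agent.Lib.SpinKer (SecD comm_sections)
open Cfsg.Agent.Lib.SpinFinal (schur_of_equiv good_of finish trivial_lower odd_two_ne_zero hv Q_hv polar_hv)
open scoped commutatorElement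

universe u

variable {F : Type u} [Field F] [Fintype F] {l : ℕ}

/-- The square form. -/
noncomputable abbrev sqF (F : Type u) [Field F] : QuadraticForm F F := QuadraticMap.sq

lemma sqF_apply (x : F) : sqF F x = x * x := rfl

lemma polar_sqF (x z : F) : polar (sqF F) x z = 2 * x * z := by
  simp only [polar, sqF_apply]
  ring

lemma aniso_sq (w : F) (h : sqF F w = 0) : w = 0 := by
  rw [sqF_apply] at h
  exact mul_self_eq_zero.mp h

lemma nondeg_sq (h2 : (2 : F) ≠ 0) : Nondeg (sqF F) := by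
  intro x hx
  refine ⟨1, ?_⟩
  rw [polar_sqF]
  simpa using ⟨h2, hx⟩

/-- The isometry with the space of the statement. -/
def phiOdd (m : ℕ) (F : Type u) [Field F] : VB m F F ≃ₗ[F] (Unit ⊕ (Fin m ⊕ Fin m) → F) where
  toFun v := Sum.elim (fun _ => v.2) v.1
  map_add' u v := by
    funext k
    cases k <;> rfl
  map_smul' c v := by
    funext k
    cases k <;> rfl
  invFun u := (fun k => u (Sum.inr k), u (Sum.inl ()))
  left_inv v := rfl
  right_inv u := by
    funext k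
    cases k <;> rfl

lemma phiOdd_inl (m : ℕ) (v : VB m F F) (u : Unit) : phiOdd m F v (Sum.inl u) = v.2 := rfl

lemma phiOdd_inr (m : ℕ) (v : VB m F F) (k : Fin m ⊕ Fin m) : phiOdd m F v (Sum.inr k) = v.1 k := rfl

lemma phiOdd_Q (m : ℕ) (v : VB m F F) : qOdd m F (phiOdd m F v) = QV (sqF F) v := by
  rw [qOdd_apply, QV_apply, qPlus_apply, sqF_apply]
  simp only [quadFormOdd, quadFormPlus, phiOdd_inl, phiOdd_inr]
  ring

lemma phiOdd_symm_Q (m : ℕ) (v : Unit ⊕ (Fin m ⊕ Fin m) → F) : QV (sqF F) ((phiOdd m F).symm v) = qOdd m F v := by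
  rw [← phiOdd_Q, LinearEquiv.apply_symm_apply]

section Data

variable (hodd : Odd (Fintype.card F))

include hodd

lemma hQ (m : ℕ) : Nondeg (QV (l := m) (sqF F)) := nondeg_QV (nondeg_sq (odd_two_ne_zero hodd))

lemma hgen (m : ℕ) : genR (QV (l := m) (sqF F)) = ⊤ :=
  genR_congr (phiOdd m F).symm (phiOdd_symm_Q m) (genR_qOdd hodd m)

lemma hfr {m : ℕ} (hm : 2 ≤ m) : Nonempty (Frame (QV (l := m) (sqF F))) := by
  obtain ⟨n, rfl⟩ : ∃ n, m = n + 2 := ⟨m - 2, by omega⟩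
  obtain ⟨fr⟩ := frameOdd (F := F) hodd n
  exact ⟨frameCongr (phiOdd (n + 2) F).symm (phiOdd_symm_Q (n + 2)) fr⟩

lemma hcomm {m : ℕ} (hm : 2 ≤ m) : commutator (OG (QV (l := m) (sqF F))) = siegelE (QV (l := m) (sqF F)) :=
  omega_eq_E (hQ hodd m) (hgen hodd m) (hfr hodd hm).some

lemma neg_not_mem {m : ℕ} (hm : 2 ≤ m) : Cfsg.Agent.Lib.OrthoChar.negEl (QV (l := m) (sqF F)) ∉ siegelE (QV (l := m) (sqF F)) := by
  intro h
  have h1 := Cfsg.Agent.Lib.OrthoChar.hom_E (Cfsg.Agent.Lib.OrthoChar.detO (QV (l := m) (sqF F))) (hQ hodd m) (hfr hodd hm).some h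
  have h2 := Cfsg.Agent.Lib.OrthoChar.detO_neg (Q := QV (l := m) (sqF F))
  rw [h1] at h2
  have h3 : Module.finrank F (VB m F F) = 2 * m + 1 := by
    simp [Module.finrank_prod]
    ring
  rw [h3, pow_succ, pow_mul] at h2
  simp at h2
  have h4 := odd_two_ne_zero hodd
  apply h4
  linear_combination h2

end Data

section Upper

variable {Γ : Type u} [Group Γ] [Finite Γ] {σ₀ : Γ →* POV l (sqF F)} (hσ : IsStemExtension σ₀)

include hσ in
set_option maxHeartbeats 2000000 in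
/-- The upper bound. -/
theorem upper_line (hodd : Odd (Fintype.card F)) (hl : 3 ≤ l) (hexc : ¬ (l = 3 ∧ Fintype.card F = 3)) :
    ∃ π : Multiplicative (ZMod 2) →* σ₀.ker, Function.Surjective π := by
  classical
  have h2 : (2 : F) ≠ 0 := odd_two_ne_zero hodd
  have hcard2 : 2 ≤ Fintype.card F := Fintype.one_lt_card
  have hne2 : Fintype.card F ≠ 2 := fun e => by
    rw [e] at hodd
    exact absurd hodd (by decide)
  have hne4 : Fintype.card F ≠ 4 := fun e => by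
    rw [e] at hodd
    exact absurd hodd (by decide)
  have hh : 4 ≤ l ∨ ∃ d : F, d ≠ 0 ∧ d ^ 2 ≠ 1 := by
    by_cases h4 : 4 ≤ l
    · exact Or.inl h4
    · right
      have hl3 : l = 3 := by omega
      have hq3 : Fintype.card F ≠ 3 := fun e => hexc ⟨hl3, e⟩
      apply exists_pow_ne_one
      intro hd
      have := Nat.le_of_dvd (by norm_num) hd
      omega
  have hg : Good (Fin l) F := by
    by_cases h4 : 4 ≤ l
    · exact good_of h4 (fun h => hne2 h.2)
    · have hl3 : l = 3 := by omega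
      refine ⟨by simpa using hl, fun _ => ?_, fun h => ?_⟩
      · apply exists_pow_ne_one
        intro hd
        have := Nat.le_of_dvd (by norm_num) hd
        have h5 : Fintype.card F - 1 ≠ 3 := by omega
        have h6 : Fintype.card F - 1 ≠ 2 := by
          intro e
          rw [e] at hd
          norm_num at hd
        omega
      · simp only [Fintype.card_fin] at h
        omega
  have hlam : ∃ lam : F, lam ≠ 0 ∧ lam ≠ 1 := by
    refine ⟨-1, by simp, ?_⟩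
    intro e
    apply h2
    linear_combination -e
  haveI : Finite (SgV l (sqF F)) := Cfsg.Agent.Lib.OMinD.finite_E _
  have hsys := Cfsg.Agent.Lib.BLift.exists_sys hl hg hh hlam (sgP σ₀) (sgP_ker hσ) (sgP_range hσ)
  obtain ⟨x, y, Φ, hs, hΦ, hρ⟩ := hsys
  -- the vectors
  have h1 : sqF F 1 = 1 := by simp [sqF_apply]
  have hp : polar (sqF F) (2⁻¹ : F) 1 = 1 := by
    rw [polar_sqF]
    field_simp
  have hW : ∀ w : F, ∃ c : F, w = c • (1 : F) := fun w => ⟨w, by simp⟩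
  have hτ : ∀ {a b : Fin l ⊕ Fin l}, Ind a b → ∀ (t : F) (ht : t ≠ 0),
      (Φ a b (borEl t ht 0))⁻¹ * Φ a b.swap (borEl t ht 0) ∈ QB x y ({b, b.swap} : Finset (Fin l ⊕ Fin l)) :=
    fun h t ht => tau_mem hs (⟨fun h => hΦ.phi h⟩ : SecP x Φ) h1 hp h t ht
  obtain ⟨b₀, -, hb₀⟩ := third hl (Sum.inl ⟨0, by omega⟩) (Sum.inl ⟨0, by omega⟩)
  set a₀ : Fin l ⊕ Fin l := Sum.inl ⟨0, by omega⟩ with ha₀
  have hcs := comm_sections hs.hD hb₀ (hΦ.phi hb₀) (hΦ.phi hb₀.swapR)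
  have hbase := base_line hs hρ hb₀ (hΦ.phi hb₀) (hΦ.phi hb₀.swapR) hcs h1 hp hW
  set z := psiH (Φ b₀ a₀) (Φ b₀ a₀.swap) hcs (gh y 1 2⁻¹ a₀) (negS 1) with hz
  have hker := ker_univ hρ hs (⟨fun h => hΦ.phi h⟩ : SecP x Φ) aniso_sq hτ (u₀ := 1) (by rw [h1]; exact one_ne_zero) hbase
  have hz1 : sgP σ₀ z = 1 := psi_neg_ker hρ hb₀ (hΦ.phi hb₀) (hΦ.phi hb₀.swapR) hcs _
  have hz2 : z * z = 1 := psi_neg_sq hcs _
  have hzK : fstP σ₀ z ∈ σ₀.ker := by
    have h5 : z.1.2 = 1 := Subtype.ext hz1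
    have h3 := (mem_Pb σ₀).mp z.2
    rw [MonoidHom.mem_ker]
    show σ₀ z.1.1 = 1
    rw [h3, h5, map_one]
  have hclass : ∀ k ∈ σ₀.ker, k = 1 ∨ k = fstP σ₀ z := by
    intro k hk
    have hm : 2 ≤ l := by omega
    obtain ⟨p, hp', rfl, c, hc2, hc⟩ := K_lift hσ hρ (hQ hodd l) (hfr hodd hm).some aniso_sq hk
    rcases sq_eq_one_iff.mp hc2 with rfl | rfl
    · have h5 : sgP σ₀ p = 1 := by
        apply OG_ext
        intro v
        rw [hc, one_smul]
        rfl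
      rcases hker p hp' h5 with rfl | rfl
      · left
        exact map_one _
      · right
        rfl
    · exfalso
      have h5 : sgP σ₀ p = Cfsg.Agent.Lib.OrthoChar.negEl (QV (sqF F)) := by
        apply OG_ext
        intro v
        rw [hc, neg_smul, one_smul]
        rfl
      exact neg_not_mem hodd hm (h5 ▸ sgP_mem σ₀ p)
  set y₀ : σ₀.ker := ⟨fstP σ₀ z, hzK⟩ with hy₀
  have hy2 : y₀ ^ 2 = 1 := by
    apply Subtype.ext
    show (fstP σ₀ z) ^ 2 = 1
    rw [pow_two, ← map_mul, hz2, map_one]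
  obtain ⟨π, hπ⟩ := Cfsg.Agent.Lib.SpinSurj.zmod_hom y₀ hy2
  refine ⟨π, ?_⟩
  rintro ⟨k, hk⟩
  rcases hclass k hk with rfl | rfl
  · exact ⟨1, map_one _⟩
  · refine ⟨Multiplicative.ofAdd ((1 : ℕ) : ZMod 2), ?_⟩
    rw [hπ 1, pow_one]

end Upper

section Main

/-- The lower bound. -/
lemma exists_cover (hodd : Odd (Fintype.card F)) (hl : 3 ≤ l) :
    ∃ (Γ : Type u) (_ : Group Γ) (_ : Finite Γ) (σ : Γ →* POV l (sqF F)), IsStemExtension σ ∧
      2 * Nat.card (center (SgV l (sqF F))) ≤ Nat.card σ.ker := by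
  have h2 := odd_two_ne_zero hodd
  have h01 : (⟨0, by omega⟩ : Fin l) ≠ ⟨1, by omega⟩ := by simp [Fin.ext_iff]
  have ha : QV (sqF F) ((0, 1) : VB l F F) = 1 := by
    rw [QV_apply]
    simp [sqF_apply]
  have hb : ∀ i : Fin l, QV (sqF F) ((hv i, 0) : VB l F F) = 1 := by
    intro i
    rw [QV_apply]
    simp [sqF_apply, Q_hv]
  have hab : ∀ i : Fin l, polar (QV (sqF F)) ((0, 1) : VB l F F) (hv i, 0) = 0 := by
    intro i
    rw [polar_QV]
    simp [polar_sqF]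
  have hbc : polar (QV (sqF F)) ((hv ⟨0, by omega⟩, 0) : VB l F F) (hv ⟨1, by omega⟩, 0) = 0 := by
    rw [polar_QV]
    simp [polar_sqF, polar_hv h01]
  exact Cfsg.Agent.Lib.SpinCliff.exists_stem (hQ hodd l) (hfr hodd (by omega)).some h2 (hcomm hodd (by omega)) ha (hb _) (hb _)
    (hab _) hbc (hab _)

/-- The multiplier. -/
theorem mult_line (hodd : Odd (Fintype.card F)) (hl : 3 ≤ l) (hexc : ¬ (l = 3 ∧ Fintype.card F = 3)) :
    HasSchurMultiplier (POV l (sqF F)) (Multiplicative (ZMod 2)) := by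
  have hup : ∀ (Γ : Type u) [Group Γ] [Finite Γ] (σ : Γ →* POV l (sqF F)), IsStemExtension σ →
      ∃ π : Multiplicative (ZMod 2) →* σ.ker, Function.Surjective π :=
    fun Γ _ _ σ hσ => upper_line hσ hodd hl hexc
  refine ⟨?_, hup⟩
  obtain ⟨Γ, i1, i2, σ, hσ, hc⟩ := exists_cover (F := F) (l := l) hodd hl
  obtain ⟨π, hπ⟩ := hup Γ σ hσ
  haveI : Finite (Multiplicative (ZMod 2)) := inferInstanceAs (Finite (ZMod 2))
  refine ⟨Γ, i1, i2, σ, hσ, finish ?_ hπ⟩
  have hcard : Nat.card (Multiplicative (ZMod 2)) = 2 := by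
    rw [show Nat.card (Multiplicative (ZMod 2)) = Nat.card (ZMod 2) from rfl, Nat.card_zmod]
  haveI : Finite (SgV l (sqF F)) := Cfsg.Agent.Lib.OMinD.finite_E _
  have : 0 < Nat.card (center (SgV l (sqF F))) := Nat.card_pos
  rw [hcard]
  omega

/-- `PΩ` in the statement and the quotient of the Siegel group. -/
noncomputable def poEquiv (hodd : Odd (Fintype.card F)) (hl : 3 ≤ l) :
    Cfsg.POmega F (Cfsg.quadFormOdd l F) ≃* POV l (sqF F) :=
  quotCenterEquiv ((isoOG (Cfsg.quadFormOdd l F) (qOdd l F) (fun v => (qOdd_apply l v).symm)).trans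
    (OG.congr (phiOdd l F) (phiOdd_Q l)).symm) (SgV l (sqF F)) (hcomm hodd (by omega))

/-- The final theorem. -/
theorem main (hodd : Odd (Fintype.card F)) (hl : 3 ≤ l) (hexc : ¬ (l = 3 ∧ Fintype.card F = 3)) :
    HasCyclicSchurMultiplier (Cfsg.POmega F (Cfsg.quadFormOdd l F)) 2 :=
  schur_of_equiv (poEquiv hodd hl) (mult_line hodd hl hexc)

end Main

end Cfsg.Agent.Lib.BOdd
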