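/-
BWNil1: groups in which every Sylow subgroup is generated by "values" acting trivially on
invariant coprime subgroups: local structure (Sylow subgroups are T.I.).
-/
import Mathlib
import Cfsg.Prelude.Def_OddOrderLocal
import Cfsg.Agent.Lib.BGFit2
import Cfsg.Agent.Lib.NilpFix
import Cfsg.Agent.Lib.PResid

set_option autoImplicit false
set_option linter.unusedSectionVars false
set_option linter.unusedVariables false
set_option linter.style.haveILetI false
set_option linter.unusedSimpArgs false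

namespace Cfsg.Agent.Lib.BWNil1

open Cfsg Subgroup Cfsg.Agent.Lib.CoprimeInv Cfsg.Agent.Lib.PCore Cfsg.Agent.Lib.BGUniq
  Cfsg.Agent.Lib.BGFit1 Cfsg.Agent.Lib.BGFit2

universe u

variable {G : Type u} [Group G] [Finite G]

/-- The abstract data on a nonabelian simple group. -/
structure Data (Δ : ℕ → Set G) : Prop where
  simple : IsSimpleGroup G
  center : Subgroup.center G = ⊥
  conj : ∀ (q : ℕ) (x g : G), x ∈ Δ q → g * x * g⁻¹ ∈ Δ q
  pelt : ∀ (q : ℕ) (x : G), x ∈ Δ q → ∃ n : ℕ, x ^ q ^ n = 1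
  gen : ∀ (q : ℕ) [Fact q.Prime] (P : Sylow q G),
    (P : Subgroup G) ≤ closure ((P : Set G) ∩ Δ q)
  inv : ∀ (q : ℕ) (x : G) (U : Subgroup G), x ∈ Δ q → (Nat.card U).Coprime q →
    x ∈ normalizer (U : Set G) → ∀ u ∈ U, x * u = u * x
  fpf : ∀ (q : ℕ) (c : G) (U : Subgroup G), q.Prime → (orderOf c).Coprime q → IsPGroup q U →
    c ∈ normalizer (U : Set G) → (∀ u ∈ U, c * u = u * c → u = 1) → ∀ u ∈ U, u ∈ Δ q
  comm : ∀ (q : ℕ) [Fact q.Prime] (P : Sylow q G) (x s : G), x ∈ P → x ∈ Δ q → s ∈ P →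
    x * s * x⁻¹ * s⁻¹ ∈ Δ q
  prop : ∀ M : Subgroup G, M ≠ ⊤ →
    Group.IsSolvable M ∧ Group.IsNilpotent (M ⧸ fittingSubgroup M)

section generic

/-- If `z = y x` with commuting `y, x`, where `z, y` are `q`-elements and `x` has order prime to
`q`, then `x = 1`. -/
theorem eq_one_of_pelt_mul {q : ℕ} [Fact q.Prime] {z y x : G} (hz : ∃ n : ℕ, z ^ q ^ n = 1)
    (hy : ∃ n : ℕ, y ^ q ^ n = 1) (hzyx : z = y * x) (hc : y * x = x * y) {k : ℕ}
    (hxk : x ^ k = 1) (hk : k.Coprime q) : x = 1 := by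
  obtain ⟨a, ha⟩ := hz
  obtain ⟨b, hb⟩ := hy
  have hq : 0 < q := (Fact.out : q.Prime).pos
  have h1 : z ^ q ^ (a + b) = 1 := by
    rw [pow_add, pow_mul, ha, one_pow]
  have h2 : y ^ q ^ (a + b) = 1 := by
    rw [add_comm, pow_add, pow_mul, hb, one_pow]
  have h3 : x ^ q ^ (a + b) = 1 := by
    have hcomm : Commute y x := hc
    have := hcomm.mul_pow (q ^ (a + b))
    rw [← hzyx, h1, h2, one_mul] at this
    exact this.symm
  exact Cfsg.Agent.Lib.PResid.eq_one_of_pow_eq_one_of_coprime h3 hxk hk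

/-- Decomposition of an element of `F(M)`. -/
theorem fitting_decomp (q : ℕ) [Fact q.Prime] (M : Subgroup G) {d : G} (hd : d ∈ fittingOf M) :
    ∃ a ∈ pCoreOf q M, ∃ x ∈ xOf q M, d = a * x := by
  obtain ⟨x, hx, rfl⟩ := hd
  have h1 := fittingSubgroup_le_sup q hx
  obtain ⟨a, ha, b, hb, hab⟩ := Subgroup.mem_sup_of_normal_left.mp h1
  have haF : a ∈ fittingSubgroup M := pCore_le_fittingSubgroup q ha
  have hbF : b ∈ fittingSubgroup M := by
    have : b = a⁻¹ * x := by rw [← hab]; group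
    rw [this]
    exact (fittingSubgroup M).mul_mem ((fittingSubgroup M).inv_mem haF) hx
  refine ⟨(a : G), ⟨a, ha, rfl⟩, (b : G), ⟨⟨b, hbF, rfl⟩, ⟨b, hb, rfl⟩⟩, ?_⟩
  rw [← hab]; rfl

theorem pCoreOf_le_of_isSylowIn {q : ℕ} [Fact q.Prime] {Y M : Subgroup G} (hY : IsSylowIn q Y M) :
    pCoreOf q M ≤ Y := by
  rintro _ ⟨x, hx, rfl⟩
  have h1 : x ∈ (hY.toSylow : Subgroup M) := pCore_le_sylow q hY.toSylow hx
  exact h1

theorem pow_card_of_mem {U : Subgroup G} {x : G} (hx : x ∈ U) : x ^ Nat.card U = 1 := by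
  have h1 := pow_card_eq_one' (x := (⟨x, hx⟩ : U))
  have h2 := congrArg Subtype.val h1
  rw [Subgroup.coe_pow] at h2
  exact h2

theorem card_lt_of_lt {A B : Subgroup G} (hAB : A < B) : Nat.card A < Nat.card B := by
  have h1 : Nat.card A ≤ Nat.card B :=
    Nat.le_of_dvd Nat.card_pos (Subgroup.card_dvd_of_le hAB.le)
  refine lt_of_le_of_ne h1 ?_
  intro e
  exact hAB.ne (Subgroup.eq_of_le_of_card_ge hAB.le e.ge)

theorem pelt_of_mem {q : ℕ} {Q : Subgroup G} (hQ : IsPGroup q Q) {x : G} (hx : x ∈ Q) :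
    ∃ n : ℕ, x ^ q ^ n = 1 :=
  Cfsg.Agent.Lib.PResid.exists_pow_eq_one_of_isPGroup hQ hx

theorem coprime_card_of_isPGroup {q : ℕ} [Fact q.Prime] {Y Z : Subgroup G} (hY : IsPGroup q Y)
    (hZ : (Nat.card Z).Coprime q) : (Nat.card Y).Coprime (Nat.card Z) := by
  obtain ⟨k, hk⟩ := IsPGroup.iff_card.mp hY
  rw [hk]
  exact Nat.Coprime.pow_left k hZ.symm

theorem isSylowIn_of_sylow_le {q : ℕ} [Fact q.Prime] (P : Sylow q G) {M : Subgroup G}
    (hPM : (P : Subgroup G) ≤ M) : IsSylowIn q (P : Subgroup G) M :=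
  ⟨hPM, P.2, fun R _ hR hPR => P.3 hR hPR⟩

end generic

section main

variable {Δ : ℕ → Set G} (h : Data Δ)

include h

theorem sylow_ne_top {q : ℕ} [Fact q.Prime] (P : Sylow q G) : (P : Subgroup G) ≠ ⊤ := by
  intro hP
  have hG : IsPGroup q G := by
    have h1 : IsPGroup q (⊤ : Subgroup G) := hP ▸ P.2
    exact h1.of_equiv Subgroup.topEquiv
  haveI := h.simple.toNontrivial
  have := hG.center_nontrivial
  have h2 := h.center
  rw [h2] at this
  exact (not_nontrivial_iff_subsingleton.mpr inferInstance) this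

theorem normalizer_ne_top' {H : Subgroup G} (h1 : H ≠ ⊥) (h2 : H ≠ ⊤) :
    normalizer (H : Set G) ≠ ⊤ := by
  intro hN
  have hn : H.Normal := normalizer_eq_top_iff.mp hN
  rcases h.simple.eq_bot_or_eq_top_of_normal H hn with h3 | h3
  · exact h1 h3
  · exact h2 h3

/-- Main local lemma: a Sylow subgroup `Y` of `M` centralizing `O_{q'}(F(M))` is normal in `M`. -/
theorem normal_of_comm_x {q : ℕ} [Fact q.Prime] {M Y : Subgroup G} (hM : M ≠ ⊤)
    (hY : IsSylowIn q Y M) (hc : ∀ y ∈ Y, ∀ x ∈ xOf q M, y * x = x * y) :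
    M ≤ normalizer (Y : Set G) := by
  intro m hm
  haveI nil : Group.IsNilpotent (M ⧸ fittingSubgroup M) := (h.prop M hM).2
  have hle : cj Y m ≤ Y := by
    rintro _ ⟨y, hy, rfl⟩
    show m * y * m⁻¹ ∈ Y
    let π := QuotientGroup.mk' (fittingSubgroup M)
    have hπ : Function.Surjective π := QuotientGroup.mk'_surjective _
    let P₀ : Sylow q M := hY.toSylow
    let Pt : Sylow q (M ⧸ fittingSubgroup M) := Sylow.mapSurjective hπ P₀
    have hnorm : (Pt : Subgroup (M ⧸ fittingSubgroup M)).Normal :=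
      (Group.isNilpotent_of_finite_tfae.out 0 3 rfl rfl).mp nil q inferInstance Pt
    let a : M := ⟨m, hm⟩
    let b : M := ⟨y, hY.1 hy⟩
    have hb : b ∈ (P₀ : Subgroup M) := hy
    have h1 : π (a * b * a⁻¹) ∈ (Pt : Subgroup (M ⧸ fittingSubgroup M)) := by
      rw [map_mul, map_mul, map_inv]
      apply hnorm.conj_mem
      show π b ∈ (Pt : Subgroup _)
      rw [Sylow.coe_mapSurjective]
      exact Subgroup.mem_map_of_mem _ hb
    rw [Sylow.coe_mapSurjective] at h1
    obtain ⟨c, hcP, hcπ⟩ := h1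
    have hd : c⁻¹ * (a * b * a⁻¹) ∈ fittingSubgroup M := by
      rw [← QuotientGroup.ker_mk' (fittingSubgroup M), MonoidHom.mem_ker, map_mul, map_inv]
      change (π c)⁻¹ * π (a * b * a⁻¹) = 1
      rw [hcπ]; group
    have hd' : ((c⁻¹ * (a * b * a⁻¹) : M) : G) ∈ fittingOf M := ⟨_, hd, rfl⟩
    obtain ⟨a₁, ha₁, x, hx, hdec⟩ := fitting_decomp q M hd'
    have hcY : (c : G) ∈ Y := hcP
    have ha₁Y : a₁ ∈ Y := pCoreOf_le_of_isSylowIn hY ha₁
    set y₂ : G := (c : G) * a₁ with hy₂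
    have hy₂Y : y₂ ∈ Y := Y.mul_mem hcY ha₁Y
    have hz : m * y * m⁻¹ = y₂ * x := by
      have h2 : (c : G)⁻¹ * (m * y * m⁻¹) = a₁ * x := by
        rw [← hdec]; simp [a, b]
      calc m * y * m⁻¹ = (c : G) * ((c : G)⁻¹ * (m * y * m⁻¹)) := by group
        _ = y₂ * x := by rw [h2, hy₂]; group
    have hpz : ∃ n : ℕ, (m * y * m⁻¹) ^ q ^ n = 1 := by
      obtain ⟨n, hn⟩ := pelt_of_mem hY.2.1 hy
      refine ⟨n, ?_⟩
      rw [conj_pow, hn]; group
    have hxk : x ^ Nat.card (xOf q M) = 1 := pow_card_of_mem hx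
    have hx1 : x = 1 :=
      eq_one_of_pelt_mul hpz (pelt_of_mem hY.2.1 hy₂Y) hz (hc y₂ hy₂Y x hx) hxk coprime_xOf
    rw [hz, hx1, mul_one]
    exact hy₂Y
  rw [mem_normalizer_iff_cj]
  exact Subgroup.eq_of_le_of_card_ge hle (by rw [card_cj])

/-- A proper subgroup containing a Sylow subgroup normalizes it. -/
theorem le_normalizer_of_sylow_le {q : ℕ} [Fact q.Prime] (P : Sylow q G) {M : Subgroup G}
    (hM : M ≠ ⊤) (hPM : (P : Subgroup G) ≤ M) : M ≤ normalizer ((P : Subgroup G) : Set G) := by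
  apply normal_of_comm_x h hM (isSylowIn_of_sylow_le P hPM)
  have h1 : closure ((P : Set G) ∩ Δ q) ≤ centralizer (xOf q M : Set G) := by
    rw [Subgroup.closure_le]
    rintro x₀ ⟨hx₀P, hx₀Δ⟩
    exact mem_centralizer_of_forall
      (h.inv q x₀ (xOf q M) hx₀Δ coprime_xOf (le_normalizer_xOf (hPM hx₀P)))
  intro y hy x hx
  exact centralizes_of_mem_centralizer (h1 (h.gen q P hy)) hx

theorem isCoatom_normalizer {q : ℕ} [Fact q.Prime] (P : Sylow q G) (hP : (P : Subgroup G) ≠ ⊥) :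
    IsCoatom (normalizer ((P : Subgroup G) : Set G)) := by
  refine ⟨normalizer_ne_top' h hP (sylow_ne_top h P), ?_⟩
  intro L hL
  by_contra hLt
  have h1 : (P : Subgroup G) ≤ L := (Subgroup.le_normalizer).trans hL.le
  exact absurd (le_normalizer_of_sylow_le h P hLt h1) (not_le_of_gt hL)

/-- A nontrivial element of the centre of a Sylow subgroup from `Δ`. -/
theorem exists_central_value {q : ℕ} [Fact q.Prime] (P : Sylow q G) (hP : (P : Subgroup G) ≠ ⊥) :
    ∃ z, z ∈ (P : Subgroup G) ∧ z ∈ Δ q ∧ z ≠ 1 ∧ ∀ s ∈ (P : Subgroup G), z * s = s * z := by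
  have hex : ∃ x, x ∈ (P : Subgroup G) ∧ x ∈ Δ q ∧ x ≠ 1 := by
    by_contra hno
    push Not at hno
    apply hP
    rw [eq_bot_iff]
    refine (h.gen q P).trans ?_
    rw [Subgroup.closure_le]
    rintro x ⟨hx1, hx2⟩
    simp [hno x hx1 hx2]
  obtain ⟨x, hxP, hxΔ, hx1⟩ := hex
  haveI hnil : Group.IsNilpotent (P : Subgroup G) := P.2.isNilpotent
  obtain ⟨n, hn⟩ := (Group.IsNilpotent.nilpotent' : ∃ n, Subgroup.upperCentralSeries (P : Subgroup G) n = ⊤)
  have key : ∀ (n : ℕ) (x : (P : Subgroup G)), (x : G) ∈ Δ q → x ≠ 1 →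
      x ∈ Subgroup.upperCentralSeries (P : Subgroup G) n →
      ∃ z, z ∈ (P : Subgroup G) ∧ z ∈ Δ q ∧ z ≠ 1 ∧ ∀ s ∈ (P : Subgroup G), z * s = s * z := by
    intro n
    induction n with
    | zero =>
      intro x _ hx hm
      rw [Subgroup.upperCentralSeries_zero, Subgroup.mem_bot] at hm
      exact absurd hm hx
    | succ n ih =>
      intro x hxΔ hx hm
      rw [Subgroup.mem_upperCentralSeries_succ_iff] at hm
      by_cases hall : ∀ y : (P : Subgroup G), x * y * x⁻¹ * y⁻¹ = 1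
      · refine ⟨x, x.2, hxΔ, fun h0 => hx (Subtype.ext h0), ?_⟩
        intro s hs
        have h1 := hall ⟨s, hs⟩
        have h2 : x * ⟨s, hs⟩ = ⟨s, hs⟩ * x := by
          calc x * ⟨s, hs⟩ = (x * ⟨s, hs⟩ * x⁻¹ * (⟨s, hs⟩ : (P : Subgroup G))⁻¹) * (⟨s, hs⟩ * x) := by
                group
            _ = ⟨s, hs⟩ * x := by rw [h1, one_mul]
        exact congrArg Subtype.val h2
      · push Not at hall
        obtain ⟨y, hy⟩ := hall
        refine ih (x * y * x⁻¹ * y⁻¹) ?_ hy (hm y)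
        exact h.comm q P x y x.2 hxΔ y.2
  exact key n ⟨x, hxP⟩ hxΔ (fun h0 => hx1 (congrArg Subtype.val h0)) (by rw [hn]; trivial)

/-- The T.I. property, with a maximal intersection. -/
theorem ti_aux {q : ℕ} [Fact q.Prime] (A B : Sylow q G) (hAB : A ≠ B)
    (hbot : (A : Subgroup G) ⊓ B ≠ ⊥)
    (hmax : ∀ C D : Sylow q G, C ≠ D → (C : Subgroup G) ⊓ D ≠ ⊥ →
      Nat.card ((C : Subgroup G) ⊓ D : Subgroup G) ≤ Nat.card ((A : Subgroup G) ⊓ B : Subgroup G)) :
    False := by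
  set Y : Subgroup G := (A : Subgroup G) ⊓ B with hY
  have hYne : ∀ {C D : Sylow q G}, C ≠ D → (C : Subgroup G) ⊓ D < C := by
    intro C D hCD
    refine lt_of_le_of_ne inf_le_left ?_
    intro he
    have h1 : (C : Subgroup G) ≤ D := inf_eq_left.mp he
    exact hCD (Sylow.ext (C.3 D.2 h1).symm)
  have hYA : Y < A := hYne hAB
  have hYB : Y < B := by
    have := hYne hAB.symm
    rwa [inf_comm] at this
  have hYtop : Y ≠ ⊤ := fun h0 => sylow_ne_top h A (top_le_iff.mp (h0 ▸ hYA.le))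
  set X : Subgroup G := normalizer (Y : Set G) with hX
  have hXtop : X ≠ ⊤ := normalizer_ne_top' h hbot hYtop
  have hSyl : ∀ C : Sylow q G, Y < C → (∀ D : Sylow q G, D ≠ C → (D : Subgroup G) ⊓ C ≠ ⊥ →
      Nat.card ((D : Subgroup G) ⊓ C : Subgroup G) ≤ Nat.card Y) →
      IsSylowIn q ((C : Subgroup G) ⊓ X) X := by
    intro C hYC hmaxC
    refine ⟨inf_le_right, C.2.to_le inf_le_left, ?_⟩
    intro R hRX hR hWR
    obtain ⟨D, hD⟩ := hR.exists_le_sylow
    obtain ⟨t, htC, htY, htN⟩ := CoprimeInv.exists_mem_normalizer_of_lt C.2 hYC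
    have hYW : Y ≤ (C : Subgroup G) ⊓ X := le_inf hYC.le Subgroup.le_normalizer
    have htW : t ∈ (C : Subgroup G) ⊓ X := ⟨htC, htN⟩
    have hDC : D = C := by
      by_contra hne
      have h1 : (C : Subgroup G) ⊓ X ≤ (D : Subgroup G) ⊓ C :=
        le_inf (hWR.trans hD) inf_le_left
      have h2 : (D : Subgroup G) ⊓ C ≠ ⊥ := by
        intro h0
        have h3 : Y ≤ ⊥ := by rw [← h0]; exact hYW.trans h1
        exact hbot (le_bot_iff.mp h3)
      have h4 := hmaxC D hne h2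
      have h5 : Y < (D : Subgroup G) ⊓ C := by
        refine lt_of_le_of_ne (hYW.trans h1) ?_
        intro h0
        exact htY (h0 ▸ h1 htW)
      have h6 : Nat.card Y < Nat.card ((D : Subgroup G) ⊓ C : Subgroup G) :=
        card_lt_of_lt h5
      omega
    subst hDC
    exact le_antisymm (le_inf hD hRX) hWR
  have hWsyl : IsSylowIn q ((A : Subgroup G) ⊓ X) X := by
    refine hSyl A hYA ?_
    intro D hD hDbot
    simpa [hY, inf_comm] using hmax D A hD hDbot
  have hWsyl' : IsSylowIn q ((B : Subgroup G) ⊓ X) X := by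
    refine hSyl B hYB ?_
    intro D hD hDbot
    have h1 := hmax D B hD hDbot
    exact h1
  have hOq : pCoreOf q X ≤ Y :=
    le_inf ((pCoreOf_le_of_isSylowIn hWsyl).trans inf_le_left)
      ((pCoreOf_le_of_isSylowIn hWsyl').trans inf_le_left)
  have hAbot : (A : Subgroup G) ≠ ⊥ := fun h0 => hbot (le_bot_iff.mp (h0 ▸ hYA.le))
  obtain ⟨z, hzA, hzΔ, hz1, hzcomm⟩ := exists_central_value h A hAbot
  have hzN : z ∈ X := by
    apply mem_normalizer_of_centralizes
    intro a ha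
    rw [hzcomm a (hYA.le ha)]
    group
  have hzx : ∀ u ∈ xOf q X, z * u = u * z :=
    h.inv q z (xOf q X) hzΔ coprime_xOf (le_normalizer_xOf hzN)
  have hzF : z ∈ fittingOf X := by
    apply mem_fittingOf_of_centralizes (h.prop X hXtop).1 hzN
    intro f hf
    obtain ⟨a, ha, x, hx, rfl⟩ := fitting_decomp q X hf
    have h1 := hzcomm a (hYA.le (hOq ha))
    have h2 := hzx x hx
    calc z * (a * x) = (z * a) * x := by group
      _ = a * (z * x) := by rw [h1]; group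
      _ = a * x * z := by rw [h2]; group
  have hzY : z ∈ Y := by
    obtain ⟨a, ha, x, hx, hdec⟩ := fitting_decomp q X hzF
    have hxk : x ^ Nat.card (xOf q X) = 1 := pow_card_of_mem hx
    have hx1 : x = 1 :=
      eq_one_of_pelt_mul (pelt_of_mem A.2 hzA) (pelt_of_mem (isPGroup_pCoreOf q X) ha) hdec
        (comm_V_X a ha x hx) hxk coprime_xOf
    rw [hdec, hx1, mul_one]
    exact hOq ha
  have hYx : ∀ y ∈ Y, ∀ u ∈ xOf q X, y * u = u * y :=
    comm_of_coprime (coprime_card_of_isPGroup (A.2.to_le inf_le_left) coprime_xOf)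
      Subgroup.le_normalizer xOf_le le_rfl le_normalizer_xOf
  have hCzN : centralizer ({z} : Set G) ≤ normalizer ((A : Subgroup G) : Set G) := by
    apply le_normalizer_of_sylow_le h A
    · intro h0
      apply hz1
      have h1 : z ∈ Subgroup.center G := by
        rw [Subgroup.mem_center_iff]
        intro g
        have h2 : g ∈ centralizer ({z} : Set G) := by rw [h0]; trivial
        exact (Subgroup.mem_centralizer_iff.mp h2 z rfl).symm
      rw [h.center] at h1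
      simpa using h1
    · intro s hs
      rw [Subgroup.mem_centralizer_iff]
      intro y hy
      rw [Set.mem_singleton_iff] at hy
      rw [hy]
      exact hzcomm s hs
  have hWx : ∀ y ∈ (A : Subgroup G) ⊓ X, ∀ u ∈ xOf q X, y * u = u * y := by
    intro w hw u hu
    have hu1 : u ∈ normalizer ((A : Subgroup G) : Set G) := by
      apply hCzN
      rw [Subgroup.mem_centralizer_iff]
      intro y hy
      rw [Set.mem_singleton_iff] at hy
      rw [hy]
      exact hYx z hzY u hu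
    refine comm_of_inf hw.1 hu (le_normalizer_xOf hw.2) hu1 ?_
    exact inf_eq_bot_of_coprime' (coprime_card_of_isPGroup A.2 coprime_xOf)
  have hWn : X ≤ normalizer (((A : Subgroup G) ⊓ X : Subgroup G) : Set G) :=
    normal_of_comm_x h hXtop hWsyl hWx
  obtain ⟨t, htB, htY, htN⟩ := CoprimeInv.exists_mem_normalizer_of_lt B.2 hYB
  have htW' : t ∈ (A : Subgroup G) ⊓ X := by
    have hR : IsPGroup q (((B : Subgroup G) ⊓ X) ⊔ ((A : Subgroup G) ⊓ X) : Subgroup G) := by
      apply isPGroup_sup_of_le_normalizer (hWsyl'.2.1) (hWsyl.2.1)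
      exact inf_le_right.trans hWn
    have h1 := hWsyl.2.2 _ (sup_le inf_le_right inf_le_right) hR le_sup_right
    have h2 : t ∈ (((B : Subgroup G) ⊓ X) ⊔ ((A : Subgroup G) ⊓ X) : Subgroup G) :=
      (le_sup_left : (B : Subgroup G) ⊓ X ≤ _) ⟨htB, htN⟩
    rw [h1] at h2
    exact h2
  exact htY ⟨htW'.1, htB⟩

/-- Sylow subgroups are T.I. -/
theorem ti {q : ℕ} [Fact q.Prime] (P P' : Sylow q G) (hne : P ≠ P') :
    (P : Subgroup G) ⊓ P' = ⊥ := by
  classical
  by_contra hbot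
  let s : Set (Sylow q G × Sylow q G) :=
    {x | x.1 ≠ x.2 ∧ (x.1 : Subgroup G) ⊓ x.2 ≠ ⊥}
  obtain ⟨⟨A, B⟩, ⟨hAB, hbotAB⟩, hmax⟩ := Set.exists_max_image s
    (fun x => Nat.card ((x.1 : Subgroup G) ⊓ x.2 : Subgroup G)) (Set.toFinite s)
    ⟨(P, P'), hne, hbot⟩
  exact ti_aux h A B hAB hbotAB (fun C D hCD hCDbot => hmax (C, D) ⟨hCD, hCDbot⟩)

end main

end Cfsg.Agent.Lib.BWNil1
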