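/-
BWNil2: structure of the maximal subgroups in the setting of BWNil1.
-/
import Mathlib
import Cfsg.Agent.Lib.BWNil1

set_option autoImplicit false
set_option linter.unusedSectionVars false
set_option linter.unusedVariables false
set_option linter.style.haveILetI false
set_option linter.unusedSimpArgs false

namespace Cfsg.Agent.Lib.BWNil2

open Cfsg Subgroup Cfsg.Agent.Lib.CoprimeInv Cfsg.Agent.Lib.PCore Cfsg.Agent.Lib.BGUniq
  Cfsg.Agent.Lib.BGFit1 Cfsg.Agent.Lib.BGFit2 Cfsg.Agent.Lib.BWNil1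

universe u

variable {G : Type u} [Group G] [Finite G]

section generic

theorem isPGroup_zpowers_of_pelt {s : ℕ} [Fact s.Prime] {x : G} (hp : ∃ n : ℕ, x ^ s ^ n = 1) :
    IsPGroup s (zpowers x) := by
  obtain ⟨n, hn⟩ := hp
  rw [IsPGroup.iff_card, Nat.card_zpowers]
  have h1 : orderOf x ∣ s ^ n := orderOf_dvd_of_pow_eq_one hn
  obtain ⟨k, _, hk⟩ := (Nat.dvd_prime_pow (Fact.out : s.Prime)).mp h1
  exact ⟨k, hk⟩

theorem exists_prime_elt {x : G} (hx : x ≠ 1) :
    ∃ s : ℕ, s.Prime ∧ s ∣ orderOf x ∧ ∃ y ∈ zpowers x, y ≠ 1 ∧ y ^ s = 1 := by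
  have h1 : orderOf x ≠ 1 := fun h0 => hx (orderOf_eq_one_iff.mp h0)
  obtain ⟨s, hs, hd⟩ := Nat.exists_prime_and_dvd h1
  refine ⟨s, hs, hd, x ^ (orderOf x / s), Subgroup.npow_mem_zpowers x _, ?_, ?_⟩
  · intro h0
    have h2 := orderOf_pow_orderOf_div (orderOf_pos x).ne' hd
    rw [h0, orderOf_one] at h2
    exact hs.one_lt.ne h2
  · rw [← pow_mul, Nat.div_mul_cancel hd, pow_orderOf_eq_one]

theorem mem_core_of_fitting (M : Subgroup G) {s : ℕ} [Fact s.Prime] {x : G}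
    (hx : x ∈ fittingOf M) (hp : ∃ n : ℕ, x ^ s ^ n = 1) : x ∈ pCoreOf s M := by
  obtain ⟨a, ha, b, hb, hdec⟩ := fitting_decomp s M hx
  have hb1 : b = 1 :=
    eq_one_of_pelt_mul hp (pelt_of_mem (isPGroup_pCoreOf s M) ha) hdec (comm_V_X a ha b hb)
      (pow_card_of_mem hb) coprime_xOf
  rw [hdec, hb1, mul_one]
  exact ha

theorem normalizer_cj_eq (K : Subgroup G) (g : G) :
    normalizer (cj K g : Set G) = cj (normalizer (K : Set G)) g := by
  apply le_antisymm
  · have h1 := normalizer_cj_of_le (K := cj K g) (P := normalizer (cj K g : Set G)) (g := g⁻¹) le_rfl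
    rw [cj_cj_inv] at h1
    have h2 := cj_mono h1 g
    rwa [cj_inv_cj] at h2
  · exact normalizer_cj_of_le le_rfl

/-- An element normal-closure helper: if `N` is normal in `Q` nilpotent, there is a nontrivial
central element of `Q` in `N`. -/
theorem exists_central_of_normal {Q : Type*} [Group Q] [Group.IsNilpotent Q] (N : Subgroup Q)
    [N.Normal] (hN : N ≠ ⊥) : ∃ z ∈ N, z ≠ 1 ∧ z ∈ Subgroup.center Q := by
  obtain ⟨x₀, hx₀⟩ := (Subgroup.ne_bot_iff_exists_ne_one (H := N)).mp hN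
  have hx : (x₀ : Q) ∈ N := x₀.2
  have hx1 : (x₀ : Q) ≠ 1 := fun h0 => hx₀ (Subtype.ext h0)
  obtain ⟨n, hn⟩ := (Group.IsNilpotent.nilpotent' : ∃ n, Subgroup.upperCentralSeries Q n = ⊤)
  have key : ∀ (n : ℕ) (x : Q), x ∈ N → x ≠ 1 → x ∈ Subgroup.upperCentralSeries Q n →
      ∃ z ∈ N, z ≠ 1 ∧ z ∈ Subgroup.center Q := by
    intro n
    induction n with
    | zero =>
      intro x _ hx hm
      rw [Subgroup.upperCentralSeries_zero, Subgroup.mem_bot] at hm
      exact absurd hm hx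
    | succ n ih =>
      intro x hxN hx hm
      rw [Subgroup.mem_upperCentralSeries_succ_iff] at hm
      by_cases hall : ∀ y : Q, x * y * x⁻¹ * y⁻¹ = 1
      · refine ⟨x, hxN, hx, ?_⟩
        rw [Subgroup.mem_center_iff]
        intro y
        have h1 := hall y
        calc y * x = (x * y * x⁻¹ * y⁻¹)⁻¹ * (x * y) := by group
          _ = x * y := by rw [h1]; group
      · push Not at hall
        obtain ⟨y, hy⟩ := hall
        refine ih (x * y * x⁻¹ * y⁻¹) ?_ hy (hm y)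
        have h1 : y * x⁻¹ * y⁻¹ ∈ N := ‹N.Normal›.conj_mem _ (N.inv_mem hxN) y
        have h2 : x * y * x⁻¹ * y⁻¹ = x * (y * x⁻¹ * y⁻¹) := by group
        rw [h2]
        exact N.mul_mem hxN h1
  exact key n x₀ hx hx1 (by rw [hn]; trivial)

end generic

section main

variable {Δ : ℕ → Set G} (h : Data Δ)

include h

theorem normalizer_le_of_le {q : ℕ} [Fact q.Prime] (P : Sylow q G) {U : Subgroup G}
    (hU : U ≤ P) (h1 : U ≠ ⊥) : normalizer (U : Set G) ≤ normalizer ((P : Subgroup G) : Set G) := by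
  intro g hg
  have hgP : g • P = P := by
    by_contra hne
    have h2 := ti h P (g • P) (Ne.symm hne)
    apply h1
    rw [eq_bot_iff, ← h2]
    refine le_inf hU ?_
    rw [Cfsg.Agent.Lib.PResid.coe_smul_eq_conj_map]
    have h3 : cj U g = U := cj_eq_of_mem_normalizer hg
    calc U = cj U g := h3.symm
      _ ≤ _ := cj_mono hU g
  exact Sylow.smul_eq_iff_mem_normalizer.mp hgP

theorem sylow_eq_of_mem {q : ℕ} [Fact q.Prime] {P P' : Sylow q G} {x : G} (hx : x ∈ (P : Subgroup G))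
    (hx' : x ∈ (P' : Subgroup G)) (h1 : x ≠ 1) : P = P' := by
  by_contra hne
  have h2 := ti h P P' hne
  have h3 : x ∈ (P : Subgroup G) ⊓ P' := ⟨hx, hx'⟩
  rw [h2, Subgroup.mem_bot] at h3
  exact h1 h3

theorem centralizer_le {q : ℕ} [Fact q.Prime] (P : Sylow q G) {x : G} (hx : x ∈ (P : Subgroup G))
    (h1 : x ≠ 1) : centralizer ({x} : Set G) ≤ normalizer ((P : Subgroup G) : Set G) := by
  have h2 : zpowers x ≠ ⊥ := by
    intro h0
    exact h1 (Subgroup.zpowers_eq_bot.mp h0)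
  refine le_trans ?_ (normalizer_le_of_le h P ((zpowers_le).mpr hx) h2)
  intro g hg
  apply mem_normalizer_of_centralizes
  rintro _ ⟨k, rfl⟩
  have h3 : g * x = x * g := (Subgroup.mem_centralizer_iff.mp hg x rfl).symm
  have h4 : Commute g x := h3
  show g * x ^ k * g⁻¹ = x ^ k
  rw [(h4.zpow_right k).eq]
  group

theorem mem_of_le_normalizer {s : ℕ} [Fact s.Prime] (S : Sylow s G) {L : Subgroup G}
    (hL : L ≤ normalizer ((S : Subgroup G) : Set G)) {x : G} (hx : x ∈ L)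
    (hp : ∃ n : ℕ, x ^ s ^ n = 1) : x ∈ (S : Subgroup G) := by
  have h1 := isPGroup_zpowers_of_pelt hp
  have h2 : IsPGroup s (zpowers x ⊔ (S : Subgroup G) : Subgroup G) :=
    isPGroup_sup_of_le_normalizer h1 S.2 ((zpowers_le).mpr (hL hx))
  have h3 := S.3 h2 le_sup_right
  have h4 : x ∈ (zpowers x ⊔ (S : Subgroup G) : Subgroup G) :=
    (le_sup_left : zpowers x ≤ _) (mem_zpowers x)
  rw [h3] at h4
  exact h4

/-- Structure of `O_s(M)` for a maximal subgroup. -/
theorem coatom_core {M : Subgroup G} (hM : IsCoatom M) {s : ℕ} [Fact s.Prime]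
    (hne : pCoreOf s M ≠ ⊥) :
    ∃ S : Sylow s G, (S : Subgroup G) = pCoreOf s M ∧
      normalizer ((S : Subgroup G) : Set G) = M := by
  obtain ⟨S, hS⟩ := (isPGroup_pCoreOf s M).exists_le_sylow
  have hSbot : (S : Subgroup G) ≠ ⊥ := fun h0 => hne (le_bot_iff.mp (h0 ▸ hS))
  have h1 : M ≤ normalizer ((S : Subgroup G) : Set G) :=
    (le_normalizer_pCoreOf s M).trans (normalizer_le_of_le h S hS hne)
  have h2 : normalizer ((S : Subgroup G) : Set G) = M := by
    rcases hM.le_iff.mp h1 with h3 | h3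
    · exact absurd h3 (normalizer_ne_top' h hSbot (sylow_ne_top h S))
    · exact h3
  refine ⟨S, le_antisymm ?_ hS, h2⟩
  have h3 : (S : Subgroup G) ≤ M := by
    rw [← h2]; exact Subgroup.le_normalizer
  exact le_pCoreOf h3 h1 S.2

theorem mem_core_of_pelt {M : Subgroup G} (hM : IsCoatom M) {s : ℕ} [Fact s.Prime]
    (hne : pCoreOf s M ≠ ⊥) {x : G} (hx : x ∈ M) (hp : ∃ n : ℕ, x ^ s ^ n = 1) :
    x ∈ pCoreOf s M := by
  obtain ⟨S, hS, hN⟩ := coatom_core h hM hne
  rw [← hS]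
  exact mem_of_le_normalizer h S hN.ge hx hp

/-- Disjointness of Fitting subgroups of distinct maximal subgroups. -/
theorem eq_of_mem_fitting {M M' : Subgroup G} (hM : IsCoatom M) (hM' : IsCoatom M') {x : G}
    (hx : x ∈ fittingOf M) (hx' : x ∈ fittingOf M') (h1 : x ≠ 1) : M = M' := by
  obtain ⟨s, hs, -, y, hy, hy1, hys⟩ := exists_prime_elt h1
  haveI : Fact s.Prime := ⟨hs⟩
  have hp : ∃ n : ℕ, y ^ s ^ n = 1 := ⟨1, by simpa using hys⟩
  have hyF : y ∈ fittingOf M := (zpowers_le.mpr hx) hy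
  have hyF' : y ∈ fittingOf M' := (zpowers_le.mpr hx') hy
  have hc := mem_core_of_fitting M hyF hp
  have hc' := mem_core_of_fitting M' hyF' hp
  have hne : pCoreOf s M ≠ ⊥ := fun h0 => hy1 (by rw [h0] at hc; simpa using hc)
  have hne' : pCoreOf s M' ≠ ⊥ := fun h0 => hy1 (by rw [h0] at hc'; simpa using hc')
  obtain ⟨S, hS, hN⟩ := coatom_core h hM hne
  obtain ⟨S', hS', hN'⟩ := coatom_core h hM' hne'
  have : S = S' := sylow_eq_of_mem h (by rw [hS]; exact hc) (by rw [hS']; exact hc') hy1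
  rw [← hN, ← hN', this]

/-- Coprime elements of a proper subgroup commute modulo the Fitting subgroup. -/
theorem comm_mem_fitting {M : Subgroup G} (hM : M ≠ ⊤) {u v : G} (hu : u ∈ M) (hv : v ∈ M)
    (hc : (orderOf u).Coprime (orderOf v)) : u * v * u⁻¹ * v⁻¹ ∈ fittingOf M := by
  haveI nil : Group.IsNilpotent (M ⧸ fittingSubgroup M) := (h.prop M hM).2
  let π := QuotientGroup.mk' (fittingSubgroup M)
  let a : M := ⟨u, hu⟩
  let b : M := ⟨v, hv⟩
  have h1 : (orderOf (π a)).Coprime (orderOf (π b)) := by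
    have h2 : orderOf (π a) ∣ orderOf a := orderOf_map_dvd π a
    have h3 : orderOf (π b) ∣ orderOf b := orderOf_map_dvd π b
    have h4 : orderOf a = orderOf u := Subgroup.orderOf_mk u hu
    have h5 : orderOf b = orderOf v := Subgroup.orderOf_mk v hv
    rw [h4] at h2
    rw [h5] at h3
    exact Nat.Coprime.coprime_dvd_left h2 (Nat.Coprime.coprime_dvd_right h3 hc)
  have h2 := Cfsg.Agent.Lib.NilpFix.commute_of_coprime (π a) (π b) h1
  have h3 : a * b * a⁻¹ * b⁻¹ ∈ fittingSubgroup M := by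
    rw [← QuotientGroup.ker_mk' (fittingSubgroup M), MonoidHom.mem_ker, map_mul, map_mul, map_mul,
      map_inv, map_inv]
    change π a * π b * (π a)⁻¹ * (π b)⁻¹ = 1
    rw [h2]; group
  exact ⟨_, h3, rfl⟩

/-- Elements of coprime orders in the intersection of two maximal subgroups commute. -/
theorem commute_of_inter {M M' : Subgroup G} (hM : IsCoatom M) (hM' : IsCoatom M') (hne : M ≠ M')
    {u v : G} (hu : u ∈ M ⊓ M') (hv : v ∈ M ⊓ M') (hc : (orderOf u).Coprime (orderOf v)) :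
    u * v = v * u := by
  have h1 := comm_mem_fitting h hM.1 hu.1 hv.1 hc
  have h2 := comm_mem_fitting h hM'.1 hu.2 hv.2 hc
  by_contra hcomm
  have h3 : u * v * u⁻¹ * v⁻¹ ≠ 1 := by
    intro h0
    apply hcomm
    calc u * v = (u * v * u⁻¹ * v⁻¹) * (v * u) := by group
      _ = v * u := by rw [h0, one_mul]
  exact hne (eq_of_mem_fitting h hM hM' h1 h2 h3)

/-- An element of `M` all of whose primes occur in `F(M)` lies in `F(M)`. -/
theorem mem_fitting_of_primes {M : Subgroup G} (hM : IsCoatom M) :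
    ∀ (n : ℕ) (x : G), orderOf x = n → x ∈ M →
      (∀ (r : ℕ) [Fact r.Prime], r ∣ orderOf x → pCoreOf r M ≠ ⊥) → x ∈ fittingOf M := by
  intro n
  induction n using Nat.strong_induction_on with
  | _ n ih =>
    intro x hn hxM hpr
    by_cases hx1 : x = 1
    · rw [hx1]; exact one_mem _
    have h1 : orderOf x ≠ 1 := fun h0 => hx1 (orderOf_eq_one_iff.mp h0)
    obtain ⟨r, hr, hd⟩ := Nat.exists_prime_and_dvd h1
    haveI : Fact r.Prime := ⟨hr⟩
    obtain ⟨a, b, hab, -, hap, hbc, haz, hbz⟩ := Cfsg.Agent.Lib.PResid.exists_decomp (p := r) x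
    have haM : a ∈ M := (zpowers_le.mpr hxM) haz
    have hbM : b ∈ M := (zpowers_le.mpr hxM) hbz
    have haF : a ∈ fittingOf M :=
      pCoreOf_le_fittingOf r M (mem_core_of_pelt h hM (hpr r hd) haM hap)
    have hbd : orderOf b ∣ orderOf x := by
      rw [← Nat.card_zpowers, ← Nat.card_zpowers]
      exact Subgroup.card_dvd_of_le (zpowers_le.mpr hbz)
    have hblt : orderOf b < n := by
      rw [← hn]
      refine lt_of_le_of_ne (Nat.le_of_dvd (orderOf_pos x) hbd) ?_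
      intro h0
      rw [h0] at hbc
      exact (Nat.Prime.coprime_iff_not_dvd hr).mp hbc.symm hd
    have hbF : b ∈ fittingOf M := by
      refine ih _ hblt b rfl hbM ?_
      intro r' _ hr'
      exact hpr r' (hr'.trans hbd)
    rw [hab]
    exact mul_mem haF hbF

/-- If `pCoreOf s M = ⊥` then `F(M)` has order prime to `s`. -/
theorem coprime_fitting {M : Subgroup G} {s : ℕ} [Fact s.Prime] (hne : pCoreOf s M = ⊥) :
    (Nat.card (fittingOf M)).Coprime s := by
  rw [Nat.coprime_comm, Nat.Prime.coprime_iff_not_dvd Fact.out]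
  intro hd
  obtain ⟨x, hx⟩ := exists_prime_orderOf_dvd_card' (G := fittingOf M) s hd
  have h1 : ((x : G)) ^ s = 1 := by
    have := pow_orderOf_eq_one x
    rw [hx] at this
    exact congrArg Subtype.val this
  have hc := mem_core_of_fitting M x.2 ⟨1, by simpa using h1⟩
  rw [hne, Subgroup.mem_bot] at hc
  have h2 : x = 1 := Subtype.ext hc
  rw [h2, orderOf_one] at hx
  exact (Fact.out : s.Prime).one_lt.ne hx

/-- **Factorization**: if `F(M') ∩ M ≠ 1` then `M = F(M) (M ∩ M')`. -/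
theorem factor {M M' : Subgroup G} (hM : IsCoatom M) (hM' : IsCoatom M') (hne : M ≠ M')
    (hb : fittingOf M' ⊓ M ≠ ⊥) :
    ∃ (s : ℕ) (_ : Fact s.Prime) (S : Sylow s G) (b : G), pCoreOf s M = ⊥ ∧
      normalizer ((S : Subgroup G) : Set G) = M' ∧ (S : Subgroup G) = pCoreOf s M' ∧
      b ∈ (S : Subgroup G) ⊓ M ∧ b ≠ 1 ∧
      ∀ m ∈ M, ∃ f ∈ fittingOf M, ∃ t ∈ M ⊓ M', m = f * t := by
  obtain ⟨b₀, hb₀⟩ := (Subgroup.ne_bot_iff_exists_ne_one (H := fittingOf M' ⊓ M)).mp hb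
  obtain ⟨hb₀1⟩ : ∃ _ : (b₀ : G) ≠ 1, True :=
    ⟨fun h0 => hb₀ (Subtype.ext h0), trivial⟩
  obtain ⟨s, hs, -, y, hy, hy1, hys⟩ := exists_prime_elt hb₀1
  haveI fs : Fact s.Prime := ⟨hs⟩
  have hp : ∃ n : ℕ, y ^ s ^ n = 1 := ⟨1, by simpa using hys⟩
  have hyF' : y ∈ fittingOf M' := (zpowers_le.mpr b₀.2.1) hy
  have hyM : y ∈ M := (zpowers_le.mpr b₀.2.2) hy
  have hc' := mem_core_of_fitting M' hyF' hp
  have hne' : pCoreOf s M' ≠ ⊥ := fun h0 => hy1 (by rw [h0] at hc'; simpa using hc')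
  obtain ⟨S, hS, hN⟩ := coatom_core h hM' hne'
  have hyS : y ∈ (S : Subgroup G) := by rw [hS]; exact hc'
  have hsM : pCoreOf s M = ⊥ := by
    by_contra hne2
    obtain ⟨S₁, hS₁, hN₁⟩ := coatom_core h hM hne2
    have h1 := mem_core_of_pelt h hM hne2 hyM hp
    have h2 : S₁ = S := sylow_eq_of_mem h (by rw [hS₁]; exact h1) hyS hy1
    apply hne
    rw [← hN₁, ← hN, h2]
  have hcop : (Nat.card (fittingOf M)).Coprime s := coprime_fitting h hsM
  have hWsyl : IsSylowIn s ((S : Subgroup G) ⊓ M) M := by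
    refine ⟨inf_le_right, S.2.to_le inf_le_left, ?_⟩
    intro R hRM hR hWR
    obtain ⟨C, hC⟩ := hR.exists_le_sylow
    have h1 : C = S := sylow_eq_of_mem h (hC (hWR ⟨hyS, hyM⟩)) hyS hy1
    subst h1
    exact le_antisymm (le_inf hC hRM) hWR
  haveI nil : Group.IsNilpotent (M ⧸ fittingSubgroup M) := (h.prop M hM.1).2
  let π := QuotientGroup.mk' (fittingSubgroup M)
  have hπ : Function.Surjective π := QuotientGroup.mk'_surjective _
  let P₀ : Sylow s M := hWsyl.toSylow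
  let Pt : Sylow s (M ⧸ fittingSubgroup M) := Sylow.mapSurjective hπ P₀
  have hnorm : (Pt : Subgroup (M ⧸ fittingSubgroup M)).Normal :=
    (Group.isNilpotent_of_finite_tfae.out 0 3 rfl rfl).mp nil s inferInstance Pt
  have hnotF : ∀ x : M, (x : G) ≠ 1 → (x : G) ∈ (S : Subgroup G) → π x ≠ 1 := by
    intro x hx1 hxS h0
    have h1 : x ∈ fittingSubgroup M := by
      rw [← QuotientGroup.ker_mk' (fittingSubgroup M), MonoidHom.mem_ker]
      exact h0
    have h2 : (x : G) ∈ fittingOf M := ⟨x, h1, rfl⟩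
    have h3 := mem_core_of_fitting M h2 (pelt_of_mem S.2 hxS)
    rw [hsM, Subgroup.mem_bot] at h3
    exact hx1 h3
  have hPtne : (Pt : Subgroup (M ⧸ fittingSubgroup M)) ≠ ⊥ := by
    intro h0
    have h1 : π ⟨y, hyM⟩ ∈ (Pt : Subgroup (M ⧸ fittingSubgroup M)) := by
      rw [Sylow.coe_mapSurjective]
      exact Subgroup.mem_map_of_mem _ (show (⟨y, hyM⟩ : M) ∈ (P₀ : Subgroup M) from ⟨hyS, hyM⟩)
    rw [h0, Subgroup.mem_bot] at h1
    exact hnotF ⟨y, hyM⟩ hy1 hyS h1
  obtain ⟨zt, hzt, hzt1, hztc⟩ := exists_central_of_normal (Pt : Subgroup (M ⧸ fittingSubgroup M)) hPtne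
  rw [Sylow.coe_mapSurjective] at hzt
  obtain ⟨b, hbP, hbπ⟩ := hzt
  have hbW : (b : G) ∈ (S : Subgroup G) ⊓ M := hbP
  have hb1 : (b : G) ≠ 1 := by
    intro h0
    have h1 : b = 1 := Subtype.ext h0
    apply hzt1
    rw [← hbπ, h1, map_one]
  refine ⟨s, fs, S, b, hsM, hN, hS, hbW, hb1, ?_⟩
  -- central modulo `F(M)`
  have hcentral : ∀ m : M, m * b * m⁻¹ * b⁻¹ ∈ fittingSubgroup M := by
    intro m
    rw [← QuotientGroup.ker_mk' (fittingSubgroup M), MonoidHom.mem_ker, map_mul, map_mul, map_mul,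
      map_inv, map_inv]
    change π m * π b * (π m)⁻¹ * (π b)⁻¹ = 1
    have h1 : π m * π b = π b * π m := by
      rw [hbπ]
      exact (Subgroup.mem_center_iff.mp hztc (π m))
    rw [h1]; group
  set F := fittingOf M with hF
  set A : Subgroup G := zpowers (b : G) with hA
  have hAM : A ≤ M := zpowers_le.mpr b.2
  have hAS : A ≤ S := zpowers_le.mpr hbW.1
  have hAF : A ≤ normalizer (F : Set G) := hAM.trans (le_normalizer_fittingOf M)
  have hAbot : A ≠ ⊥ := fun h0 => hb1 (Subgroup.zpowers_eq_bot.mp h0)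
  have hAp : IsPGroup s A := S.2.to_le hAS
  have hcard : Nat.card (A ⊔ F : Subgroup G) = Nat.card A * Nat.card F := by
    have h1 := card_sup_mul_card_inf hAF
    have h2 : A ⊓ F = ⊥ := inf_eq_bot_of_coprime' (coprime_card_of_isPGroup hAp hcop)
    rw [h2] at h1
    simpa using h1
  have hLM : A ⊔ F ≤ M := sup_le hAM (fittingOf_le_self M)
  have hsyl : IsSylowIn s A (A ⊔ F) := by
    refine ⟨le_sup_left, hAp, ?_⟩
    intro R hR hRp hAR
    apply Subgroup.eq_of_le_of_card_ge hAR |> fun f => (f ?_).symm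
    obtain ⟨k, hk⟩ := IsPGroup.iff_card.mp hRp
    have h1 : Nat.card R ∣ Nat.card A * Nat.card F := by
      rw [← hcard]; exact Subgroup.card_dvd_of_le hR
    have h2 : (Nat.card R).Coprime (Nat.card F) := by
      rw [hk]; exact Nat.Coprime.pow_left k hcop.symm
    exact Nat.le_of_dvd Nat.card_pos (h2.dvd_of_dvd_mul_right h1)
  have hMN : M ≤ normalizer ((A ⊔ F : Subgroup G) : Set G) := by
    intro m hm
    rw [mem_normalizer_iff_cj]
    have hle : cj (A ⊔ F) m ≤ A ⊔ F := by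
      rintro _ ⟨x, hx, rfl⟩
      have hset := Subgroup.coe_mul_of_left_le_normalizer_right A F hAF
      have hx' : x ∈ ((A ⊔ F : Subgroup G) : Set G) := hx
      rw [hset] at hx'
      obtain ⟨a, ha, f, hf, rfl⟩ := Set.mem_mul.mp hx'
      obtain ⟨k, rfl⟩ := ha
      show m * (((b : G)) ^ k * f) * m⁻¹ ∈ A ⊔ F
      have hmb : m * (b : G) ^ k * m⁻¹ ∈ A ⊔ F := by
        have h1 : ∀ c : G, c ∈ A → m * c * m⁻¹ ∈ A ⊔ F := by
          intro c hc
          have h2 : (zpowers (b : G)) ≤ (A ⊔ F : Subgroup G).comap (MulAut.conj m).toMonoidHom := by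
            rw [zpowers_le]
            show m * (b : G) * m⁻¹ ∈ A ⊔ F
            have h3 := hcentral ⟨m, hm⟩
            have h4 : m * (b : G) * m⁻¹ * (b : G)⁻¹ ∈ F := ⟨_, h3, rfl⟩
            have h5 : m * (b : G) * m⁻¹ = (m * (b : G) * m⁻¹ * (b : G)⁻¹) * (b : G) := by group
            rw [h5]
            exact mul_mem ((le_sup_right : F ≤ A ⊔ F) h4)
              ((le_sup_left : A ≤ A ⊔ F) (mem_zpowers _))
          exact h2 hc
        exact h1 _ ⟨k, rfl⟩
      have hmf : m * f * m⁻¹ ∈ A ⊔ F :=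
        (le_sup_right : F ≤ A ⊔ F) ((Subgroup.mem_normalizer_iff.mp (le_normalizer_fittingOf M hm) f).mp hf)
      have h6 : m * ((b : G) ^ k * f) * m⁻¹ = (m * (b : G) ^ k * m⁻¹) * (m * f * m⁻¹) := by group
      rw [h6]
      exact mul_mem hmb hmf
    exact Subgroup.eq_of_le_of_card_ge hle (by rw [card_cj])
  intro m hm
  have hsyl2 := hsyl.cj_of_normalizer (hMN hm)
  obtain ⟨ℓ, hℓ, hcj⟩ := hsyl.exists_conj hsyl2
  have ht : ℓ⁻¹ * m ∈ normalizer (A : Set G) := by
    rw [mem_normalizer_iff_cj]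
    have h1 : cj A (ℓ⁻¹ * m) = cj (cj A m) ℓ⁻¹ := (cj_cj A m ℓ⁻¹).symm
    rw [h1, hcj, cj_cj_inv]
  have htM' : ℓ⁻¹ * m ∈ M' := by
    rw [← hN]
    exact normalizer_le_of_le h S hAS hAbot ht
  have htM : ℓ⁻¹ * m ∈ M := mul_mem (inv_mem (hLM hℓ)) hm
  -- decompose `ℓ`
  have hset := Subgroup.coe_mul_of_left_le_normalizer_right A F hAF
  have hℓ' : ℓ ∈ ((A ⊔ F : Subgroup G) : Set G) := hℓ
  rw [hset] at hℓ'
  obtain ⟨a, ha, f, hf, hafℓ⟩ := Set.mem_mul.mp hℓ'
  have haN : a ∈ normalizer (A : Set G) := Subgroup.le_normalizer ha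
  have haM' : a ∈ M' := by
    rw [← hN]
    exact normalizer_le_of_le h S hAS hAbot haN
  -- `m = (a f a⁻¹) (a (ℓ⁻¹ m))`
  refine ⟨a * f * a⁻¹, (Subgroup.mem_normalizer_iff.mp (hAF ha) f).mp hf, a * (ℓ⁻¹ * m),
    ⟨mul_mem (hAM ha) htM, mul_mem haM' htM'⟩, ?_⟩
  have hafℓ' : ℓ = a * f := hafℓ.symm
  rw [hafℓ']
  group

end main

end Cfsg.Agent.Lib.BWNil2
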