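/-
BWNil3: the counting contradiction in the setting of BWNil1.
-/
import Mathlib
import Cfsg.Agent.Lib.BWNil2
import Cfsg.Agent.Lib.FrobNPC

set_option autoImplicit false
set_option linter.unusedSectionVars false
set_option linter.unusedVariables false
set_option linter.style.haveILetI false
set_option linter.unusedSimpArgs false

namespace Cfsg.Agent.Lib.BWNil3

open Cfsg Subgroup Cfsg.Agent.Lib.CoprimeInv Cfsg.Agent.Lib.PCore Cfsg.Agent.Lib.BGUniq
  Cfsg.Agent.Lib.BGFit1 Cfsg.Agent.Lib.BGFit2 Cfsg.Agent.Lib.BWNil1 Cfsg.Agent.Lib.BWNil2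

universe u

section generic

theorem coprime_orderOf_of_pelt {X : Type*} [Group X] {r p : ℕ} (hr : r.Prime) (hp : p.Prime)
    (hne : r ≠ p) {u v : X} (hu : ∃ n : ℕ, u ^ r ^ n = 1) (hv : ∃ n : ℕ, v ^ p ^ n = 1) :
    (orderOf u).Coprime (orderOf v) := by
  obtain ⟨a, ha⟩ := hu
  obtain ⟨b, hb⟩ := hv
  exact Nat.Coprime.coprime_dvd_left (orderOf_dvd_of_pow_eq_one ha)
    (Nat.Coprime.coprime_dvd_right (orderOf_dvd_of_pow_eq_one hb)
      (Nat.coprime_pow_primes a b hr hp hne))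

/-- A finite group in which elements of coprime orders commute is nilpotent. -/
theorem isNilpotent_of_commute_coprime {T : Type*} [Group T] [Finite T]
    (hc : ∀ a b : T, (orderOf a).Coprime (orderOf b) → a * b = b * a) : Group.IsNilpotent T := by
  refine ((Group.isNilpotent_of_finite_tfae (G := T)).out 0 3 rfl rfl).mpr ?_
  intro p hp P
  rw [← Subgroup.normalizer_eq_top_iff]
  by_contra hne
  have hidx : (normalizer ((P : Subgroup T) : Set T)).index ≠ 1 := by
    rwa [Ne, Subgroup.index_eq_one]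
  obtain ⟨r, hr, hrd⟩ := Nat.exists_prime_and_dvd hidx
  haveI : Fact r.Prime := ⟨hr⟩
  obtain ⟨R⟩ : Nonempty (Sylow r T) := inferInstance
  have key : ∃ R : Sylow r T, (R : Subgroup T) ≤ normalizer ((P : Subgroup T) : Set T) := by
    by_cases hrp : r = p
    · subst hrp
      exact ⟨P, Subgroup.le_normalizer⟩
    · refine ⟨R, ?_⟩
      intro u hu
      rw [Subgroup.mem_normalizer_iff]
      intro v
      have hcomm : ∀ v ∈ (P : Subgroup T), u * v = v * u := fun v hv =>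
        hc u v (coprime_orderOf_of_pelt hr hp.out hrp
          (let ⟨n, hn⟩ := (IsPGroup.iff_orderOf.mp R.2 ⟨u, hu⟩)
           ⟨n, by
             have := pow_orderOf_eq_one (⟨u, hu⟩ : (R : Subgroup T))
             rw [hn] at this
             exact congrArg Subtype.val this⟩)
          (let ⟨n, hn⟩ := (IsPGroup.iff_orderOf.mp P.2 ⟨v, hv⟩)
           ⟨n, by
             have := pow_orderOf_eq_one (⟨v, hv⟩ : (P : Subgroup T))
             rw [hn] at this
             exact congrArg Subtype.val this⟩))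
      constructor
      · intro hv
        have : u * v * u⁻¹ = v := by rw [hcomm v hv]; group
        rwa [this]
      · intro hv
        have h1 : u * v * u⁻¹ ∈ (P : Subgroup T) := hv
        have h2 := hcomm _ h1
        have h3 : u * (u * v * u⁻¹) = (u * v * u⁻¹) * u := h2
        have h4 : u * v * u⁻¹ = v := by
          have h5 : u * (u * v * u⁻¹) * u⁻¹ = u * v * u⁻¹ := by rw [h3]; group
          have h6 : u * (u * v * u⁻¹) * u⁻¹ = u * (u * v * u⁻¹ * u⁻¹) := by group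
          have h7 : u * v * u⁻¹ * u⁻¹ = v * u⁻¹ := by
            apply mul_left_cancel (a := u)
            rw [← h6, h5]; group
          apply mul_right_cancel (b := u⁻¹)
          exact h7
        rwa [h4] at h1
  obtain ⟨R', hR'⟩ := key
  have h1 : (R' : Subgroup T).relIndex (normalizer ((P : Subgroup T) : Set T)) *
      (normalizer ((P : Subgroup T) : Set T)).index = (R' : Subgroup T).index :=
    Subgroup.relIndex_mul_index hR'
  exact R'.not_dvd_index (hrd.trans ⟨_, by rw [← h1, mul_comm]⟩)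

variable {G : Type u} [Group G] [Finite G]

/-- Counting conjugates of pairwise non-fusing sets. -/
theorem count_disjoint {ι : Type*} [Fintype ι] (X : ι → Set G) (N : ι → Subgroup G)
    (hX1 : ∀ i, (1 : G) ∉ X i)
    (hconj : ∀ i j x g, x ∈ X i → g * x * g⁻¹ ∈ X j → i = j ∧ g ∈ N i) :
    ∑ i, (N i).index * (X i).ncard + 1 ≤ Nat.card G := by
  classical
  let α := Σ i, (G ⧸ N i) × (X i)
  let Φ : Option α → G := fun o => match o with
    | none => 1
    | some ⟨i, q, x⟩ => q.out * (x : G) * q.out⁻¹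
  have hne1 : ∀ (i : ι) (q : G ⧸ N i) (x : X i), q.out * (x : G) * q.out⁻¹ ≠ 1 := by
    intro i q x h0
    apply hX1 i
    have : (x : G) = 1 := by
      have h1 : (x : G) = q.out⁻¹ * (q.out * (x : G) * q.out⁻¹) * q.out := by group
      rw [h1, h0]; group
    rw [← this]
    exact x.2
  have hinj : Function.Injective Φ := by
    rintro (_ | ⟨i, q, x⟩) (_ | ⟨j, q', x'⟩) hΦ
    · rfl
    · exact absurd hΦ.symm (hne1 j q' x')
    · exact absurd hΦ (hne1 i q x)
    · have h1 : q.out * (x : G) * q.out⁻¹ = q'.out * (x' : G) * q'.out⁻¹ := hΦ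
      have h2 : (q'.out⁻¹ * q.out) * (x : G) * (q'.out⁻¹ * q.out)⁻¹ = x' := by
        have h3 : (q'.out⁻¹ * q.out) * (x : G) * (q'.out⁻¹ * q.out)⁻¹ =
            q'.out⁻¹ * (q.out * (x : G) * q.out⁻¹) * q'.out := by group
        rw [h3, h1]; group
      obtain ⟨hij, hg⟩ := hconj i j x (q'.out⁻¹ * q.out) x.2 (by rw [h2]; exact x'.2)
      subst hij
      have hq : q = q' := by
        have h3 : ((q'.out : G) : G ⧸ N i) = (q.out : G) := by
          exact (QuotientGroup.eq (s := N i)).mpr hg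
        rw [← QuotientGroup.out_eq' q, ← QuotientGroup.out_eq' q']
        exact h3.symm
      subst hq
      have hx : x = x' := by
        apply Subtype.ext
        have h3 : q.out * (x : G) = q.out * (x' : G) := by
          apply mul_right_cancel (b := q.out⁻¹)
          exact h1
        exact mul_left_cancel h3
      rw [hx]
  have hcard := Nat.card_le_card_of_injective Φ hinj
  rw [Finite.card_option, Nat.card_sigma] at hcard
  simp only [Nat.card_prod, Nat.card_coe_set_eq] at hcard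
  exact hcard

theorem cover_bound {ι : Type*} (Γ : Finset ι) (T X₀ : Set G) (A : ι → Set G)
    (hc : ∀ x ∈ T, x = 1 ∨ x ∈ X₀ ∨ ∃ L ∈ Γ, x ∈ A L) :
    T.ncard ≤ 1 + X₀.ncard + ∑ L ∈ Γ, (A L).ncard := by
  classical
  have h1 : T ⊆ ({1} ∪ X₀) ∪ ⋃ L ∈ Γ, A L := by
    intro x hx
    rcases hc x hx with h2 | h2 | ⟨L, hL, h2⟩
    · exact Or.inl (Or.inl h2)
    · exact Or.inl (Or.inr h2)
    · exact Or.inr (Set.mem_biUnion hL h2)
  have h2 : ∀ Γ' : Finset ι, (⋃ L ∈ Γ', A L).ncard ≤ ∑ L ∈ Γ', (A L).ncard := by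
    intro Γ'
    induction Γ' using Finset.induction_on with
    | empty => simp
    | insert a s ha ih =>
      rw [Finset.sum_insert ha, Finset.set_biUnion_insert]
      exact (Set.ncard_union_le _ _).trans (by omega)
  have h3 := Set.ncard_le_ncard h1 (Set.toFinite _)
  have h4 := Set.ncard_union_le ({1} ∪ X₀) (⋃ L ∈ Γ, A L)
  have h5 := Set.ncard_union_le ({1} : Set G) X₀
  have h6 := h2 Γ
  rw [Set.ncard_singleton] at h5
  omega

theorem numerics {ι : Type*} (Γ : Finset ι) (g τ n₀ iT : ℕ) (i c a h : ι → ℕ)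
    (hg : 0 < g) (hτ : 0 < τ) (hiT : iT * τ = g) (hi : ∀ L ∈ Γ, i L * c L = g)
    (hc : ∀ L ∈ Γ, c L * a L = h L * τ) (h2 : ∀ L ∈ Γ, 2 * a L ≤ h L) (ha : ∀ L ∈ Γ, 0 < a L)
    (hcover : τ ≤ 1 + n₀ + ∑ L ∈ Γ, (a L - 1))
    (hcount : iT * n₀ + ∑ L ∈ Γ, i L * (h L - 1) + 1 ≤ g) (htwo : 2 ≤ Γ.card) : False := by
  have key : ∀ L ∈ Γ, 2 * (g : ℤ) * (a L : ℤ) - g ≤ 2 * (τ : ℤ) * ((i L : ℤ) * ((h L : ℤ) - 1)) := by
    intro L hL
    have h1 : ((i L : ℤ)) * (c L : ℤ) = g := by exact_mod_cast hi L hL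
    have h3 : ((c L : ℤ)) * (a L : ℤ) = (h L : ℤ) * τ := by exact_mod_cast hc L hL
    have h4 : 2 * (a L : ℤ) ≤ h L := by exact_mod_cast h2 L hL
    have h5 : (0 : ℤ) < a L := by exact_mod_cast ha L hL
    have h6 : (0 : ℤ) < h L := by linarith
    have h7 : (i L : ℤ) * (h L : ℤ) * τ = g * a L := by
      calc (i L : ℤ) * (h L : ℤ) * τ = (i L : ℤ) * ((h L : ℤ) * τ) := by ring
        _ = (i L : ℤ) * ((c L : ℤ) * (a L : ℤ)) := by rw [h3]
        _ = ((i L : ℤ) * (c L : ℤ)) * a L := by ring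
        _ = g * a L := by rw [h1]
    have h8 : 2 * ((i L : ℤ) * τ) ≤ g := by
      have h9 : (h L : ℤ) * (2 * ((i L : ℤ) * τ)) ≤ (h L : ℤ) * g := by
        calc (h L : ℤ) * (2 * ((i L : ℤ) * τ)) = 2 * ((i L : ℤ) * (h L : ℤ) * τ) := by ring
          _ = 2 * (g * a L) := by rw [h7]
          _ = g * (2 * (a L : ℤ)) := by ring
          _ ≤ g * (h L : ℤ) := by
            apply mul_le_mul_of_nonneg_left h4
            positivity
          _ = (h L : ℤ) * g := by ring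
      exact le_of_mul_le_mul_left h9 h6
    have h10 : 2 * (τ : ℤ) * ((i L : ℤ) * ((h L : ℤ) - 1)) =
        2 * ((i L : ℤ) * (h L : ℤ) * τ) - 2 * ((i L : ℤ) * τ) := by ring
    rw [h10, h7]
    linarith
  -- sums over the integers
  have hS1 : ((∑ L ∈ Γ, (a L - 1) : ℕ) : ℤ) = ∑ L ∈ Γ, (a L : ℤ) - Γ.card := by
    rw [Nat.cast_sum]
    have : ∀ L ∈ Γ, (((a L - 1 : ℕ)) : ℤ) = (a L : ℤ) - 1 := by
      intro L hL
      have := ha L hL
      rw [Nat.cast_sub (by omega)]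
      simp
    rw [Finset.sum_congr rfl this, Finset.sum_sub_distrib]
    simp
  have hS2 : ((∑ L ∈ Γ, i L * (h L - 1) : ℕ) : ℤ) = ∑ L ∈ Γ, (i L : ℤ) * ((h L : ℤ) - 1) := by
    rw [Nat.cast_sum]
    apply Finset.sum_congr rfl
    intro L hL
    have := ha L hL
    have := h2 L hL
    rw [Nat.cast_mul, Nat.cast_sub (by omega)]
    simp
  have hsumkey : 2 * (g : ℤ) * ∑ L ∈ Γ, (a L : ℤ) - (g : ℤ) * Γ.card ≤
      2 * (τ : ℤ) * ∑ L ∈ Γ, (i L : ℤ) * ((h L : ℤ) - 1) := by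
    have h1 := Finset.sum_le_sum key
    rw [Finset.sum_sub_distrib, ← Finset.mul_sum, ← Finset.mul_sum] at h1
    simp only [Finset.sum_const, nsmul_eq_mul] at h1
    linarith [h1, mul_comm (g : ℤ) (Γ.card : ℤ)]
  have hcover' : (τ : ℤ) ≤ 1 + n₀ + (∑ L ∈ Γ, (a L : ℤ) - Γ.card) := by
    rw [← hS1]
    exact_mod_cast hcover
  have hcount' : (iT : ℤ) * n₀ + (∑ L ∈ Γ, (i L : ℤ) * ((h L : ℤ) - 1)) + 1 ≤ g := by
    rw [← hS2]
    exact_mod_cast hcount
  have hiT' : (iT : ℤ) * τ = g := by exact_mod_cast hiT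
  have hg' : (0 : ℤ) < g := by exact_mod_cast hg
  have hτ' : (0 : ℤ) < τ := by exact_mod_cast hτ
  have htwo' : (2 : ℤ) ≤ Γ.card := by exact_mod_cast htwo
  set S1 : ℤ := ∑ L ∈ Γ, (a L : ℤ) with hS1def
  set S2 : ℤ := ∑ L ∈ Γ, (i L : ℤ) * ((h L : ℤ) - 1) with hS2def
  set C : ℤ := (Γ.card : ℤ) with hCdef
  have e1 : 2 * (τ : ℤ) * ((iT : ℤ) * n₀ + S2 + 1) ≤ 2 * (τ : ℤ) * g :=
    mul_le_mul_of_nonneg_left hcount' (by positivity)
  have e2 : 2 * (g : ℤ) * (τ : ℤ) ≤ 2 * (g : ℤ) * (1 + n₀ + (S1 - C)) :=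
    mul_le_mul_of_nonneg_left hcover' (by positivity)
  have e3 : 2 * (τ : ℤ) * ((iT : ℤ) * n₀) = 2 * (g : ℤ) * n₀ := by
    rw [← hiT']; ring
  have e4 : (g : ℤ) * 2 ≤ (g : ℤ) * C := mul_le_mul_of_nonneg_left htwo' hg'.le
  nlinarith

end generic

section main

variable {G : Type u} [Group G] [Finite G] {Δ : ℕ → Set G} (h : Data Δ)

include h

theorem isNilpotent_inter {M M' : Subgroup G} (hM : IsCoatom M) (hM' : IsCoatom M') (hne : M ≠ M') :
    Group.IsNilpotent ↥(M ⊓ M') := by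
  apply isNilpotent_of_commute_coprime
  intro a b hab
  have h1 : (orderOf (a : G)).Coprime (orderOf (b : G)) := by
    rwa [Subgroup.orderOf_coe, Subgroup.orderOf_coe]
  exact Subtype.ext (commute_of_inter h hM hM' hne a.2 b.2 h1)

theorem coatom_ne_bot {M : Subgroup G} (hM : IsCoatom M) : M ≠ ⊥ := by
  rintro rfl
  haveI := h.simple
  obtain ⟨x, hx⟩ := exists_ne (1 : G)
  have h1 : zpowers x = ⊤ := by
    by_contra hne
    have h2 := hM.2 (zpowers x) (bot_lt_iff_ne_bot.mpr (fun h0 => hx (Subgroup.zpowers_eq_bot.mp h0)))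
    exact hne h2
  have h2 : ∀ a b : G, a * b = b * a := by
    intro a b
    have ha : a ∈ zpowers x := by rw [h1]; trivial
    have hb : b ∈ zpowers x := by rw [h1]; trivial
    obtain ⟨i, rfl⟩ := ha
    obtain ⟨j, rfl⟩ := hb
    simp only []
    rw [← zpow_add, ← zpow_add, add_comm]
  have h3 : x ∈ Subgroup.center G := by
    rw [Subgroup.mem_center_iff]
    exact fun g => h2 g x
  rw [h.center, Subgroup.mem_bot] at h3
  exact hx h3

theorem fittingOf_ne_bot {M : Subgroup G} (hM : IsCoatom M) : fittingOf M ≠ ⊥ := by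
  intro h0
  haveI := (h.prop M hM.1).1
  have h1 : fittingSubgroup M = ⊥ := by
    rw [eq_bot_iff]
    intro x hx
    have h2 : (x : G) ∈ fittingOf M := ⟨x, hx, rfl⟩
    rw [h0, Subgroup.mem_bot] at h2
    exact Subtype.ext h2
  have h2 := centralizer_fittingSubgroup_le (G := M)
  rw [h1] at h2
  have h3 : ∀ x : M, x = 1 := by
    intro x
    have h4 : x ∈ centralizer (((⊥ : Subgroup M)) : Set M) := by
      rw [Subgroup.mem_centralizer_iff]
      intro y hy
      have hy1 : y = 1 := hy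
      rw [hy1]; simp
    have := h2 h4
    exact this
  apply coatom_ne_bot h hM
  rw [eq_bot_iff]
  intro x hx
  have := h3 ⟨x, hx⟩
  exact congrArg Subtype.val this

theorem commute_of_mem_fitting {M : Subgroup G} {u v : G} (hu : u ∈ fittingOf M)
    (hv : v ∈ fittingOf M) (hc : (orderOf u).Coprime (orderOf v)) : u * v = v * u := by
  obtain ⟨a, ha, rfl⟩ := hu
  obtain ⟨b, hb, rfl⟩ := hv
  haveI := isNilpotent_fittingSubgroup (G := M)
  have h1 := Cfsg.Agent.Lib.NilpFix.commute_of_coprime (⟨a, ha⟩ : fittingSubgroup M) ⟨b, hb⟩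
    (by
      have e1 : orderOf (⟨a, ha⟩ : fittingSubgroup M) = orderOf (M.subtype a) := by
        rw [← Subgroup.orderOf_coe (⟨a, ha⟩ : fittingSubgroup M)]
        simp
      have e2 : orderOf (⟨b, hb⟩ : fittingSubgroup M) = orderOf (M.subtype b) := by
        rw [← Subgroup.orderOf_coe (⟨b, hb⟩ : fittingSubgroup M)]
        simp
      rw [e1, e2]
      exact hc)
  have h2 := congrArg (fun z : fittingSubgroup M => M.subtype (z : M)) h1
  simpa using h2

/-- `F(M) ≠ M` for a maximal subgroup. -/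
theorem fitting_ne_self {M : Subgroup G} (hM : IsCoatom M) : fittingOf M ≠ M := by
  intro hF
  have hF1 : fittingOf M ≠ ⊥ := fittingOf_ne_bot h hM
  obtain ⟨x, hx⟩ := (Subgroup.ne_bot_iff_exists_ne_one (H := fittingOf M)).mp hF1
  have hx1 : (x : G) ≠ 1 := fun h0 => hx (Subtype.ext h0)
  obtain ⟨s, hs, -, y, hy, hy1, hys⟩ := exists_prime_elt hx1
  haveI fs : Fact s.Prime := ⟨hs⟩
  have hp : ∃ n : ℕ, y ^ s ^ n = 1 := ⟨1, by simpa using hys⟩
  have hc := mem_core_of_fitting M ((zpowers_le.mpr x.2) hy) hp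
  have hne : pCoreOf s M ≠ ⊥ := fun h0 => hy1 (by rw [h0] at hc; simpa using hc)
  obtain ⟨S, hS, hN⟩ := coatom_core h hM hne
  have hFrob : Cfsg.Agent.Lib.FrobNPC.FrobHyp s G := by
    apply Cfsg.Agent.Lib.FrobNPC.frobHyp_of_sylow S
    intro Q hQ g hg hco
    rw [Subgroup.mem_centralizer_iff]
    intro q hq
    by_cases hQbot : Q = ⊥
    · subst hQbot
      have hq1 : q = 1 := hq
      rw [hq1]; simp
    have hgM : g ∈ M := by
      rw [← hN]
      exact normalizer_le_of_le h S hQ hQbot hg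
    have hqS : q ∈ (S : Subgroup G) := hQ hq
    have hqM : q ∈ M := by
      rw [← hN]
      exact Subgroup.le_normalizer hqS
    have hcop : (orderOf q).Coprime (orderOf g) := by
      obtain ⟨n, hn⟩ := pelt_of_mem S.2 hqS
      exact Nat.Coprime.coprime_dvd_left (orderOf_dvd_of_pow_eq_one hn)
        (Nat.Coprime.pow_left _ hco.symm)
    exact commute_of_mem_fitting h (by rw [hF]; exact hqM) (by rw [hF]; exact hgM) hcop
  obtain ⟨K, hKn, hKc⟩ := Cfsg.Agent.Lib.FrobNPC.exists_complement_of_sylow S hFrob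
  haveI := h.simple
  have hcard := hKc.card_mul_card
  rcases hKn.eq_bot_or_eq_top with h0 | h0
  · apply sylow_ne_top h S
    rw [h0] at hcard
    simp only [Subgroup.card_bot, one_mul] at hcard
    exact Subgroup.eq_top_of_card_eq _ hcard
  · have h1 : Nat.card (S : Subgroup G) = 1 := by
      rw [h0] at hcard
      rw [Subgroup.card_top] at hcard
      have hpos : 0 < Nat.card G := Nat.card_pos
      exact Nat.eq_of_mul_eq_mul_left hpos (by rw [hcard, mul_one])
    have h2 : (S : Subgroup G) = ⊥ := (Subgroup.eq_bot_iff_card _).mpr h1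
    have h3 : y ∈ (S : Subgroup G) := by rw [hS]; exact hc
    rw [h2, Subgroup.mem_bot] at h3
    exact hy1 h3

/-- For each maximal subgroup another one has Fitting subgroup meeting it. -/
theorem exists_dominating {M : Subgroup G} (hM : IsCoatom M) :
    ∃ M', IsCoatom M' ∧ M' ≠ M ∧ fittingOf M' ⊓ M ≠ ⊥ := by
  have h0 : ∃ x ∈ M, x ∉ fittingOf M := by
    by_contra hno
    push Not at hno
    exact fitting_ne_self h hM (le_antisymm (fittingOf_le_self M) hno)
  obtain ⟨x, hxM, hxF⟩ := h0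
  have hpr : ∃ (r : ℕ) (_ : Fact r.Prime), r ∣ orderOf x ∧ pCoreOf r M = ⊥ := by
    by_contra hno
    push Not at hno
    exact hxF (mem_fitting_of_primes h hM _ x rfl hxM (fun r _ hr => hno r inferInstance hr))
  obtain ⟨r, fr, hrd, hrM⟩ := hpr
  have hr : r.Prime := fr.out
  set t := x ^ (orderOf x / r) with ht
  have htr : t ^ r = 1 := by
    rw [ht, ← pow_mul, Nat.div_mul_cancel hrd, pow_orderOf_eq_one]
  have ht1 : t ≠ 1 := by
    intro h1
    have h2 := orderOf_pow_orderOf_div (orderOf_pos x).ne' hrd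
    rw [← ht, h1, orderOf_one] at h2
    exact hr.one_lt.ne h2
  have htM : t ∈ M := pow_mem hxM _
  have htp : ∃ n : ℕ, t ^ r ^ n = 1 := ⟨1, by simpa using htr⟩
  obtain ⟨R, hR⟩ := (isPGroup_zpowers_of_pelt htp).exists_le_sylow
  have htR : t ∈ (R : Subgroup G) := hR (mem_zpowers t)
  have hRbot : (R : Subgroup G) ≠ ⊥ := by
    intro h1
    rw [h1, Subgroup.mem_bot] at htR
    exact ht1 htR
  have hcoat := isCoatom_normalizer h R hRbot
  have hRcore : ∀ L, L = normalizer ((R : Subgroup G) : Set G) → (R : Subgroup G) ≤ pCoreOf r L := by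
    rintro L rfl
    exact le_pCoreOf Subgroup.le_normalizer le_rfl R.2
  refine ⟨_, hcoat, ?_, ?_⟩
  · intro h1
    have h2 := hRcore M h1.symm htR
    rw [hrM, Subgroup.mem_bot] at h2
    exact ht1 h2
  · intro h1
    have h2 : t ∈ fittingOf (normalizer ((R : Subgroup G) : Set G)) ⊓ M :=
      ⟨pCoreOf_le_fittingOf r _ (hRcore _ rfl htR), htM⟩
    rw [h1, Subgroup.mem_bot] at h2
    exact ht1 h2

/-- The one-sided case. -/
theorem no_dom {M M' : Subgroup G} (hM : IsCoatom M) (hM' : IsCoatom M') (hne : M ≠ M')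
    (hb : fittingOf M' ⊓ M ≠ ⊥) (hc : fittingOf M ⊓ M' = ⊥) {M'' : Subgroup G}
    (hM'' : IsCoatom M'') (hne2 : M'' ≠ M) : fittingOf M ⊓ M'' = ⊥ := by
  by_contra hd
  obtain ⟨s, fs, S, b, hsM, hN, hS, hbW, hb1, -⟩ := factor h hM hM' hne hb
  obtain ⟨y₀, hy₀⟩ := (Subgroup.ne_bot_iff_exists_ne_one (H := fittingOf M ⊓ M'')).mp hd
  have hy₀1 : (y₀ : G) ≠ 1 := fun h0 => hy₀ (Subtype.ext h0)
  obtain ⟨q, hq, -, x₁, hx₁, hx₁1, hx₁q⟩ := exists_prime_elt hy₀1
  haveI fq : Fact q.Prime := ⟨hq⟩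
  have hpq : ∃ n : ℕ, x₁ ^ q ^ n = 1 := ⟨1, by simpa using hx₁q⟩
  have hx₁F : x₁ ∈ fittingOf M := (zpowers_le.mpr y₀.2.1) hx₁
  have hx₁M'' : x₁ ∈ M'' := (zpowers_le.mpr y₀.2.2) hx₁
  have hx₁Q := mem_core_of_fitting M hx₁F hpq
  have hQne : pCoreOf q M ≠ ⊥ := fun h0 => hx₁1 (by rw [h0] at hx₁Q; simpa using hx₁Q)
  obtain ⟨Q', hQ', hNQ'⟩ := coatom_core h hM hQne
  have hqs : s ≠ q := by
    rintro rfl
    exact hQne hsM
  have hbp : ∃ n : ℕ, b ^ s ^ n = 1 := pelt_of_mem S.2 hbW.1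
  have hbco : (orderOf b).Coprime q := by
    obtain ⟨n, hn⟩ := hbp
    exact Nat.Coprime.coprime_dvd_left (orderOf_dvd_of_pow_eq_one hn)
      (Nat.Coprime.pow_left _ ((Nat.coprime_primes fs.out hq).mpr hqs))
  have hx₁Δ : x₁ ∈ Δ q := by
    refine h.fpf q b (pCoreOf q M) hq hbco (isPGroup_pCoreOf q M) (le_normalizer_pCoreOf q M hbW.2) ?_
      x₁ hx₁Q
    intro u hu hub
    have h1 : u ∈ centralizer ({b} : Set G) := by
      rw [Subgroup.mem_centralizer_iff]
      rintro _ rfl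
      exact hub
    have h2 : u ∈ M' := by
      rw [← hN]
      exact centralizer_le h S hbW.1 hb1 h1
    have h3 : u ∈ fittingOf M ⊓ M' := ⟨pCoreOf_le_fittingOf q M hu, h2⟩
    rw [hc, Subgroup.mem_bot] at h3
    exact h3
  have hqM'' : pCoreOf q M'' = ⊥ := by
    by_contra hne3
    obtain ⟨C, hC, hNC⟩ := coatom_core h hM'' hne3
    have h1 : x₁ ∈ (C : Subgroup G) := by
      rw [hC]
      exact mem_core_of_pelt h hM'' hne3 hx₁M'' hpq
    have h2 : Q' = C := sylow_eq_of_mem h (by rw [hQ']; exact hx₁Q) h1 hx₁1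
    apply hne2
    rw [← hNC, ← hNQ', h2]
  obtain ⟨z, hz⟩ := (Subgroup.ne_bot_iff_exists_ne_one (H := fittingOf M'')).mp
    (fittingOf_ne_bot h hM'')
  have hz1 : (z : G) ≠ 1 := fun h0 => hz (Subtype.ext h0)
  obtain ⟨ℓ, hℓ, -, w, hw, hw1, hwℓ⟩ := exists_prime_elt hz1
  haveI fℓ : Fact ℓ.Prime := ⟨hℓ⟩
  have hpw : ∃ n : ℕ, w ^ ℓ ^ n = 1 := ⟨1, by simpa using hwℓ⟩
  have hwY := mem_core_of_fitting M'' ((zpowers_le.mpr z.2) hw) hpw
  have hYne : pCoreOf ℓ M'' ≠ ⊥ := fun h0 => hw1 (by rw [h0] at hwY; simpa using hwY)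
  obtain ⟨Y, hY, hNY⟩ := coatom_core h hM'' hYne
  have hℓq : ℓ ≠ q := by
    rintro rfl
    exact hYne hqM''
  have hYco : (Nat.card (pCoreOf ℓ M'')).Coprime q := by
    obtain ⟨k, hk⟩ := (isPGroup_pCoreOf ℓ M'').exists_card_eq
    rw [hk]
    exact Nat.Coprime.pow_left _ ((Nat.coprime_primes hℓ hq).mpr hℓq)
  have hcomm := h.inv q x₁ (pCoreOf ℓ M'') hx₁Δ hYco (le_normalizer_pCoreOf ℓ M'' hx₁M'')
  have hYM : (Y : Subgroup G) ≤ M := by
    intro u hu
    have hu' : u ∈ pCoreOf ℓ M'' := by rw [← hY]; exact hu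
    have h1 : u ∈ centralizer ({x₁} : Set G) := by
      rw [Subgroup.mem_centralizer_iff]
      rintro _ rfl
      exact hcomm u hu'
    rw [← hNQ']
    exact centralizer_le h Q' (by rw [hQ']; exact hx₁Q) hx₁1 h1
  have h1 := le_normalizer_of_sylow_le h Y hM.1 hYM
  rw [hNY] at h1
  rcases hM.le_iff.mp h1 with h2 | h2
  · exact hM''.1 h2
  · exact hne2 h2

/-- There is a symmetric pair of maximal subgroups. -/
theorem exists_sym : ∃ M M' : Subgroup G, IsCoatom M ∧ IsCoatom M' ∧ M ≠ M' ∧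
    fittingOf M ⊓ M' ≠ ⊥ ∧ fittingOf M' ⊓ M ≠ ⊥ := by
  haveI := h.simple
  obtain ⟨M₁, hM₁⟩ : ∃ M₁ : Subgroup G, IsCoatom M₁ := by
    rcases eq_top_or_exists_le_coatom (⊥ : Subgroup G) with h0 | ⟨a, ha, -⟩
    · exact absurd h0 bot_ne_top
    · exact ⟨a, ha⟩
  obtain ⟨M₂, hM₂, h21, hd21⟩ := exists_dominating h hM₁
  obtain ⟨M₃, hM₃, h32, hd32⟩ := exists_dominating h hM₂
  refine ⟨M₂, M₃, hM₂, hM₃, h32.symm, ?_, hd32⟩
  intro h0
  exact hd21 (no_dom h hM₂ hM₃ h32.symm hd32 h0 hM₁ h21.symm)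

end main

end Cfsg.Agent.Lib.BWNil3
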