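/-
BWNil4: `Data Δ` is contradictory.
-/
import Mathlib
import Cfsg.Agent.Lib.BWNil3

set_option autoImplicit false
set_option linter.unusedSectionVars false
set_option linter.unusedVariables false
set_option linter.style.haveILetI false
set_option linter.unusedSimpArgs false

namespace Cfsg.Agent.Lib.BWNil4

open Cfsg Subgroup Cfsg.Agent.Lib.CoprimeInv Cfsg.Agent.Lib.PCore Cfsg.Agent.Lib.BGUniq
  Cfsg.Agent.Lib.BGFit1 Cfsg.Agent.Lib.BGFit2 Cfsg.Agent.Lib.BWNil1 Cfsg.Agent.Lib.BWNil2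
  Cfsg.Agent.Lib.BWNil3

universe u

variable {G : Type u} [Group G] [Finite G]

theorem card_of_factor {X U : Subgroup G} (hU : U ≤ X)
    (hf : ∀ m ∈ X, ∃ f ∈ fittingOf X, ∃ t ∈ U, m = f * t) :
    Nat.card X * Nat.card (fittingOf X ⊓ U : Subgroup G) = Nat.card (fittingOf X) * Nat.card U := by
  have hUN : U ≤ normalizer (fittingOf X : Set G) := hU.trans (le_normalizer_fittingOf X)
  have h1 := card_sup_mul_card_inf hUN
  have h2 : U ⊔ fittingOf X = X := by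
    apply le_antisymm (sup_le hU (fittingOf_le_self X))
    intro m hm
    obtain ⟨f, hf', t, ht, rfl⟩ := hf m hm
    exact mul_mem ((le_sup_right : fittingOf X ≤ U ⊔ fittingOf X) hf') ((le_sup_left : U ≤ _) ht)
  rw [h2, inf_comm] at h1
  rw [h1, mul_comm]

/-- Membership in the family `Γ`. -/
def InΓ (T L : Subgroup G) : Prop := IsCoatom L ∧ T ≤ L ∧ fittingOf L ⊓ T ≠ ⊥

theorem fittingOf_eq_of_nilpotent {D : Subgroup G} (hD : Group.IsNilpotent D) : fittingOf D = D := by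
  haveI := hD
  rw [fittingOf, Cfsg.Agent.Lib.PCore.fittingSubgroup_eq_top_of_nilpotent]
  ext x
  simp

theorem prime_pow_ne_one {x : G} {r : ℕ} (hr : r.Prime) (hd : r ∣ orderOf x) :
    x ^ (orderOf x / r) ≠ 1 := by
  intro h1
  have h2 := orderOf_pow_orderOf_div (orderOf_pos x).ne' hd
  rw [h1, orderOf_one] at h2
  exact hr.one_lt.ne h2

theorem prime_pow_pelt {x : G} {r : ℕ} (hd : r ∣ orderOf x) :
    ∃ n : ℕ, (x ^ (orderOf x / r)) ^ r ^ n = 1 :=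
  ⟨1, by rw [pow_one, ← pow_mul, Nat.div_mul_cancel hd, pow_orderOf_eq_one]⟩

section main

variable {Δ : ℕ → Set G} (h : Data Δ)

include h

theorem inter_eq {X Y X₂ : Subgroup G} (hX : IsCoatom X) (hY : IsCoatom Y) (hX₂ : IsCoatom X₂)
    (hXY : X ≠ Y) (hb : fittingOf Y ⊓ X ≠ ⊥) (hX₂X : X₂ ≠ X) (hU : X ⊓ Y ≤ X₂)
    (hb₂ : fittingOf X₂ ⊓ (X ⊓ Y) ≠ ⊥) : X ⊓ X₂ = X ⊓ Y := by
  obtain ⟨s, fs, S, b, hsX, hN, hS, hbW, hb1, hfac⟩ := factor h hX hY hXY hb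
  have hb₃ : fittingOf X₂ ⊓ X ≠ ⊥ := by
    intro h0
    apply hb₂
    rw [eq_bot_iff, ← h0]
    exact inf_le_inf_left _ inf_le_left
  obtain ⟨s₂, fs₂, S₂, b₂, -, -, -, -, -, hfac₂⟩ := factor h hX hX₂ hX₂X.symm hb₃
  have hbY : b ∈ Y := by
    rw [← hN]
    exact Subgroup.le_normalizer hbW.1
  have hbU : b ∈ X ⊓ Y := ⟨hbW.2, hbY⟩
  have hcop := coprime_fitting h hsX
  have hle : fittingOf X ⊓ (X ⊓ X₂) ≤ fittingOf X ⊓ (X ⊓ Y) := by
    rintro u ⟨huF, huX, huX₂⟩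
    refine ⟨huF, huX, ?_⟩
    have hc : (orderOf u).Coprime (orderOf b) := by
      obtain ⟨n, hn⟩ := pelt_of_mem S.2 hbW.1
      refine Nat.Coprime.coprime_dvd_left ?_ (Nat.Coprime.coprime_dvd_right (orderOf_dvd_of_pow_eq_one hn)
        (Nat.Coprime.pow_right _ hcop))
      have h1 := Subgroup.orderOf_dvd_natCard (fittingOf X) huF
      exact h1
    have hcomm := commute_of_inter h hX hX₂ hX₂X.symm ⟨huX, huX₂⟩ ⟨hbW.2, hU hbU⟩ hc
    have h1 : u ∈ centralizer ({b} : Set G) := by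
      rw [Subgroup.mem_centralizer_iff]
      rintro _ rfl
      exact hcomm.symm
    rw [← hN]
    exact centralizer_le h S hbW.1 hb1 h1
  have hge : fittingOf X ⊓ (X ⊓ Y) ≤ fittingOf X ⊓ (X ⊓ X₂) :=
    inf_le_inf_left _ (le_inf inf_le_left hU)
  have heq := le_antisymm hle hge
  have c1 := card_of_factor (inf_le_left : X ⊓ Y ≤ X) hfac
  have c2 := card_of_factor (inf_le_left : X ⊓ X₂ ≤ X) hfac₂
  rw [heq] at c2
  have c3 : Nat.card (X ⊓ X₂ : Subgroup G) = Nat.card (X ⊓ Y : Subgroup G) := by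
    have h3 : Nat.card (fittingOf X) * Nat.card (X ⊓ X₂ : Subgroup G) =
        Nat.card (fittingOf X) * Nat.card (X ⊓ Y : Subgroup G) := by rw [← c1, ← c2]
    exact Nat.eq_of_mul_eq_mul_left Nat.card_pos h3
  symm
  exact Subgroup.eq_of_le_of_card_ge (le_inf inf_le_left hU) (by rw [c3])

/-- A conjugate landing in the same maximal subgroup. -/
theorem conj_in {L : Subgroup G} (hL : IsCoatom L) {s : ℕ} [Fact s.Prime] (hne : pCoreOf s L ≠ ⊥)
    {y g : G} (hy : y ∈ pCoreOf s L) (hy1 : y ≠ 1) (hgy : g * y * g⁻¹ ∈ L) : g ∈ L := by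
  obtain ⟨S, hS, hN⟩ := coatom_core h hL hne
  have hyS : y ∈ (S : Subgroup G) := by rw [hS]; exact hy
  obtain ⟨n, hn⟩ := pelt_of_mem S.2 hyS
  have hp : ∃ n : ℕ, (g * y * g⁻¹) ^ s ^ n = 1 := ⟨n, by rw [conj_pow, hn]; group⟩
  have h1 : g * y * g⁻¹ ∈ pCoreOf s L := mem_core_of_pelt h hL hne hgy hp
  have h2 : g * y * g⁻¹ ∈ ((g • S : Sylow s G) : Subgroup G) := by
    rw [Cfsg.Agent.Lib.PResid.coe_smul_eq_conj_map]
    exact ⟨y, hyS, rfl⟩
  have hne1 : g * y * g⁻¹ ≠ 1 := by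
    intro h0
    apply hy1
    have : y = g⁻¹ * (g * y * g⁻¹) * g := by group
    rw [this, h0]; group
  have h3 : g • S = S := sylow_eq_of_mem h h2 (by rw [hS]; exact h1) hne1
  have h4 : g ∈ normalizer ((S : Subgroup G) : Set G) := Sylow.smul_eq_iff_mem_normalizer.mp h3
  rwa [hN] at h4

/-- Lemma H: a member of the family conjugate to `L` by `g` forces `g ∈ L`. -/
theorem lemma_H {T L : Subgroup G} (hL : InΓ T L) {g : G} (hT : T ≤ cj L g) : g ∈ L := by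
  obtain ⟨t, ht⟩ := (Subgroup.ne_bot_iff_exists_ne_one (H := fittingOf L ⊓ T)).mp hL.2.2
  have ht1 : (t : G) ≠ 1 := fun h0 => ht (Subtype.ext h0)
  obtain ⟨r, hr, -, t', ht', ht'1, ht'r⟩ := exists_prime_elt ht1
  haveI fr : Fact r.Prime := ⟨hr⟩
  have hp : ∃ n : ℕ, t' ^ r ^ n = 1 := ⟨1, by simpa using ht'r⟩
  have htF : t' ∈ fittingOf L := (zpowers_le.mpr t.2.1) ht'
  have htT : t' ∈ T := (zpowers_le.mpr t.2.2) ht'
  have hc := mem_core_of_fitting L htF hp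
  have hne : pCoreOf r L ≠ ⊥ := fun h0 => ht'1 (by rw [h0] at hc; simpa using hc)
  obtain ⟨R, hR, hN⟩ := coatom_core h hL.1 hne
  have h1 : normalizer (((g • R : Sylow r G) : Subgroup G) : Set G) = cj L g := by
    rw [← hN]
    exact normalizer_cj_eq (R : Subgroup G) g
  have h2 : t' ∈ ((g • R : Sylow r G) : Subgroup G) :=
    mem_of_le_normalizer h (g • R) (L := cj L g) h1.ge (hT htT) hp
  have h3 : g • R = R := sylow_eq_of_mem h h2 (by rw [hR]; exact hc) ht'1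
  have h4 : g ∈ normalizer ((R : Subgroup G) : Set G) := Sylow.smul_eq_iff_mem_normalizer.mp h3
  rwa [hN] at h4

theorem conj_fitting {T L L' : Subgroup G} (hL : InΓ T L) (hL' : InΓ T L') {x g : G}
    (hx : x ∈ fittingOf L) (hx1 : x ≠ 1) (hgx : g * x * g⁻¹ ∈ fittingOf L') : L = L' ∧ g ∈ L := by
  obtain ⟨s, hs, -, y, hy, hy1, hys⟩ := exists_prime_elt hx1
  haveI fs : Fact s.Prime := ⟨hs⟩
  have hp : ∃ n : ℕ, y ^ s ^ n = 1 := ⟨1, by simpa using hys⟩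
  have hyF : y ∈ fittingOf L := (zpowers_le.mpr hx) hy
  have hgy : g * y * g⁻¹ ∈ fittingOf L' := by
    obtain ⟨k, rfl⟩ := hy
    have h1 : g * x ^ k * g⁻¹ = (g * x * g⁻¹) ^ k := by rw [conj_zpow]
    show g * x ^ k * g⁻¹ ∈ fittingOf L'
    rw [h1]
    exact zpow_mem hgx k
  have hgp : ∃ n : ℕ, (g * y * g⁻¹) ^ s ^ n = 1 := by
    obtain ⟨n, hn⟩ := hp
    exact ⟨n, by rw [conj_pow, hn]; group⟩
  have hne1 : g * y * g⁻¹ ≠ 1 := by
    intro h0
    apply hy1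
    have : y = g⁻¹ * (g * y * g⁻¹) * g := by group
    rw [this, h0]; group
  have hc := mem_core_of_fitting L hyF hp
  have hc' := mem_core_of_fitting L' hgy hgp
  have hne : pCoreOf s L ≠ ⊥ := fun h0 => hy1 (by rw [h0] at hc; simpa using hc)
  have hne' : pCoreOf s L' ≠ ⊥ := fun h0 => hne1 (by rw [h0] at hc'; simpa using hc')
  obtain ⟨S, hS, hN⟩ := coatom_core h hL.1 hne
  obtain ⟨S', hS', hN'⟩ := coatom_core h hL'.1 hne'
  have h2 : g * y * g⁻¹ ∈ ((g • S : Sylow s G) : Subgroup G) := by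
    rw [Cfsg.Agent.Lib.PResid.coe_smul_eq_conj_map]
    exact ⟨y, by rw [hS]; exact hc, rfl⟩
  have h3 : g • S = S' := sylow_eq_of_mem h h2 (by rw [hS']; exact hc') hne1
  have h4 : L' = cj L g := by
    rw [← hN', ← h3, ← hN]
    exact normalizer_cj_eq (S : Subgroup G) g
  have h5 : g ∈ L := lemma_H h hL (by rw [← h4]; exact hL'.2.1)
  refine ⟨?_, h5⟩
  rw [h4]
  exact (cj_eq_of_mem_normalizer (Subgroup.le_normalizer h5)).symm

theorem mixed_fitting {T L : Subgroup G} (hL : InΓ T L) {x g : G} (hx : x ∈ T)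
    (hX : x ∉ fittingOf L) (hgx : g * x * g⁻¹ ∈ fittingOf L) : False := by
  apply hX
  apply mem_fitting_of_primes h hL.1 _ x rfl (hL.2.1 hx)
  intro r _ hr h0
  have h1 := coprime_fitting h h0
  have h2 : orderOf (g * x * g⁻¹) ∣ Nat.card (fittingOf L) :=
    Subgroup.orderOf_dvd_natCard (fittingOf L) hgx
  have h3 : orderOf (g * x * g⁻¹) = orderOf x := orderOf_injective
    (MulAut.conj g).toMonoidHom (MulAut.conj g).injective x
  rw [h3] at h2
  have h4 := (Nat.Prime.coprime_iff_not_dvd (Fact.out : r.Prime)).mp h1.symm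
  exact h4 (hr.trans h2)

end main

/-- A symmetric pair of maximal subgroups. -/
structure SymPair (M M' : Subgroup G) : Prop where
  hM : IsCoatom M
  hM' : IsCoatom M'
  hne : M ≠ M'
  h1 : fittingOf M ⊓ M' ≠ ⊥
  h2 : fittingOf M' ⊓ M ≠ ⊥

section sym

variable {Δ : ℕ → Set G} (h : Data Δ) {M M' : Subgroup G} (hs : SymPair M M')

include hs

theorem inΓ_left : InΓ (M ⊓ M') M := by
  refine ⟨hs.hM, inf_le_left, fun h0 => hs.h1 ?_⟩
  rw [eq_bot_iff, ← h0]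
  rintro x ⟨hx, hx'⟩
  exact ⟨hx, fittingOf_le_self M hx, hx'⟩

theorem inΓ_right : InΓ (M ⊓ M') M' := by
  refine ⟨hs.hM', inf_le_right, fun h0 => hs.h2 ?_⟩
  rw [eq_bot_iff, ← h0]
  rintro x ⟨hx, hx'⟩
  exact ⟨hx, hx', fittingOf_le_self M' hx⟩

include h

theorem partner {L : Subgroup G} (hL : InΓ (M ⊓ M') L) :
    ∃ N, IsCoatom N ∧ N ≠ L ∧ L ⊓ N = M ⊓ M' ∧ fittingOf N ⊓ L ≠ ⊥ := by
  by_cases hLM : L = M
  · subst hLM
    exact ⟨M', hs.hM', hs.hne.symm, rfl, hs.h2⟩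
  · refine ⟨M, hs.hM, Ne.symm hLM, ?_, ?_⟩
    · rw [inf_comm]
      exact inter_eq h hs.hM hs.hM' hL.1 hs.hne hs.h2 hLM hL.2.1 hL.2.2
    · intro h0
      apply (inΓ_left hs).2.2
      rw [eq_bot_iff, ← h0]
      exact inf_le_inf_left _ hL.2.1

theorem inter_T {L₁ L₂ : Subgroup G} (hL₁ : InΓ (M ⊓ M') L₁) (hL₂ : InΓ (M ⊓ M') L₂)
    (hne : L₁ ≠ L₂) : L₁ ⊓ L₂ = M ⊓ M' := by
  obtain ⟨N, hN, hNL, hinf, hb⟩ := partner h hs hL₁
  rw [← hinf]
  apply inter_eq h hL₁.1 hN hL₂.1 hNL.symm hb hne.symm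
  · rw [hinf]; exact hL₂.2.1
  · rw [hinf]; exact hL₂.2.2

theorem factor_L {L : Subgroup G} (hL : InΓ (M ⊓ M') L) :
    ∀ m ∈ L, ∃ f ∈ fittingOf L, ∃ t ∈ M ⊓ M', m = f * t := by
  obtain ⟨N, hN, hNL, hinf, hb⟩ := partner h hs hL
  obtain ⟨_, _, _, _, -, -, -, -, -, hfac⟩ := factor h hL.1 hN hNL.symm hb
  rwa [hinf] at hfac

theorem card_L {L : Subgroup G} (hL : InΓ (M ⊓ M') L) :
    Nat.card L * Nat.card (fittingOf L ⊓ (M ⊓ M') : Subgroup G) =
      Nat.card (fittingOf L) * Nat.card (M ⊓ M' : Subgroup G) :=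
  card_of_factor hL.2.1 (factor_L h hs hL)

theorem two_le {L : Subgroup G} (hL : InΓ (M ⊓ M') L) :
    2 * Nat.card (fittingOf L ⊓ (M ⊓ M') : Subgroup G) ≤ Nat.card (fittingOf L) := by
  have hnot : ¬ fittingOf L ≤ M ⊓ M' := by
    intro hle
    have h1 : L ≤ M ⊓ M' := by
      intro m hm
      obtain ⟨f, hf, t, ht, rfl⟩ := factor_L h hs hL m hm
      exact mul_mem (hle hf) ht
    have h2 : L = M := by
      rcases hL.1.le_iff.mp (h1.trans inf_le_left) with h3 | h3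
      · exact absurd h3 hs.hM.1
      · exact h3.symm
    have h3 : L = M' := by
      rcases hL.1.le_iff.mp (h1.trans inf_le_right) with h3 | h3
      · exact absurd h3 hs.hM'.1
      · exact h3.symm
    exact hs.hne (h2.symm.trans h3)
  have hd : Nat.card (fittingOf L ⊓ (M ⊓ M') : Subgroup G) ∣ Nat.card (fittingOf L) :=
    Subgroup.card_dvd_of_le inf_le_left
  obtain ⟨k, hk⟩ := hd
  have hpos : 0 < Nat.card (fittingOf L) := Nat.card_pos
  have hk0 : k ≠ 0 := by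
    rintro rfl
    omega
  have hk1 : k ≠ 1 := by
    rintro rfl
    apply hnot
    have h1 : fittingOf L ⊓ (M ⊓ M') = fittingOf L :=
      Subgroup.eq_of_le_of_card_ge inf_le_left (by rw [hk, mul_one])
    exact inf_eq_left.mp h1
  have hk2 : 2 ≤ k := by omega
  calc 2 * Nat.card (fittingOf L ⊓ (M ⊓ M') : Subgroup G)
      = Nat.card (fittingOf L ⊓ (M ⊓ M') : Subgroup G) * 2 := mul_comm _ _
    _ ≤ Nat.card (fittingOf L ⊓ (M ⊓ M') : Subgroup G) * k := Nat.mul_le_mul_left _ hk2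
    _ = _ := hk.symm

theorem cover {x : G} (hx : x ∈ M ⊓ M') (hx1 : x ≠ 1) {s : ℕ} [Fact s.Prime]
    (hp : ∃ n : ℕ, x ^ s ^ n = 1) :
    ∃ L, InΓ (M ⊓ M') L ∧ pCoreOf s L ≠ ⊥ ∧ x ∈ pCoreOf s L := by
  have nil := isNilpotent_inter h hs.hM hs.hM' hs.hne
  have hxF : x ∈ fittingOf (M ⊓ M') := by
    rw [fittingOf_eq_of_nilpotent nil]
    exact hx
  have hxc := mem_core_of_fitting (M ⊓ M') hxF hp
  have hP₀ : pCoreOf s (M ⊓ M') ≠ ⊥ := fun h0 => hx1 (by rw [h0] at hxc; simpa using hxc)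
  obtain ⟨S, hS⟩ := (isPGroup_pCoreOf s (M ⊓ M')).exists_le_sylow
  have hSbot : (S : Subgroup G) ≠ ⊥ := fun h0 => hP₀ (le_bot_iff.mp (h0 ▸ hS))
  have hT : M ⊓ M' ≤ normalizer ((S : Subgroup G) : Set G) :=
    (le_normalizer_pCoreOf s (M ⊓ M')).trans (normalizer_le_of_le h S hS hP₀)
  have hcoat := isCoatom_normalizer h S hSbot
  have hSc : (S : Subgroup G) ≤ pCoreOf s (normalizer ((S : Subgroup G) : Set G)) :=
    le_pCoreOf Subgroup.le_normalizer le_rfl S.2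
  have hxS : x ∈ pCoreOf s (normalizer ((S : Subgroup G) : Set G)) := hSc (hS hxc)
  refine ⟨_, ⟨hcoat, hT, ?_⟩, fun h0 => hx1 (by rw [h0] at hxS; simpa using hxS), hxS⟩
  intro h0
  have h1 : x ∈ fittingOf (normalizer ((S : Subgroup G) : Set G)) ⊓ (M ⊓ M') :=
    ⟨pCoreOf_le_fittingOf s _ hxS, hx⟩
  rw [h0, Subgroup.mem_bot] at h1
  exact hx1 h1

theorem mixed_conj {x g : G} (hx : x ∈ M ⊓ M') (hX : ∀ L, InΓ (M ⊓ M') L → x ∉ fittingOf L)
    (hgx : g * x * g⁻¹ ∈ M ⊓ M') : g ∈ M ⊓ M' := by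
  have hx1 : x ≠ 1 := by
    rintro rfl
    exact hX M (inΓ_left hs) (one_mem _)
  have h1 : orderOf x ≠ 1 := fun h0 => hx1 (orderOf_eq_one_iff.mp h0)
  obtain ⟨s, hsp, hsd⟩ := Nat.exists_prime_and_dvd h1
  haveI fs : Fact s.Prime := ⟨hsp⟩
  have hy₁T : x ^ (orderOf x / s) ∈ M ⊓ M' := pow_mem hx _
  obtain ⟨L₁, hL₁, hL₁ne, hy₁⟩ := cover h hs hy₁T (prime_pow_ne_one hsp hsd) (prime_pow_pelt hsd)
  have hpr : ∃ (r : ℕ) (_ : Fact r.Prime), r ∣ orderOf x ∧ pCoreOf r L₁ = ⊥ := by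
    by_contra hno
    push Not at hno
    exact hX L₁ hL₁ (mem_fitting_of_primes h hL₁.1 _ x rfl (hL₁.2.1 hx)
      (fun r _ hr => hno r inferInstance hr))
  obtain ⟨r, fr, hrd, hrL₁⟩ := hpr
  have hy₂T : x ^ (orderOf x / r) ∈ M ⊓ M' := pow_mem hx _
  obtain ⟨L₂, hL₂, hL₂ne, hy₂⟩ := cover h hs hy₂T (prime_pow_ne_one fr.out hrd) (prime_pow_pelt hrd)
  have hne : L₁ ≠ L₂ := by
    rintro rfl
    exact hL₂ne hrL₁
  have hg₁ : g ∈ L₁ := by
    refine conj_in h hL₁.1 hL₁ne hy₁ (prime_pow_ne_one hsp hsd) ?_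
    rw [← conj_pow]
    exact hL₁.2.1 (pow_mem hgx _)
  have hg₂ : g ∈ L₂ := by
    refine conj_in h hL₂.1 hL₂ne hy₂ (prime_pow_ne_one fr.out hrd) ?_
    rw [← conj_pow]
    exact hL₂.2.1 (pow_mem hgx _)
  rw [← inter_T h hs hL₁ hL₂ hne]
  exact ⟨hg₁, hg₂⟩

end sym

theorem ncard_sub_one (H : Subgroup G) : ((H : Set G) \ {1}).ncard = Nat.card H - 1 := by
  rw [Set.ncard_sdiff_singleton_of_mem (one_mem H)]
  rfl

/-- **Main theorem of this part**: `Data Δ` is contradictory. -/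
theorem false_of_data {Δ : ℕ → Set G} (h : Data Δ) : False := by
  classical
  obtain ⟨M, M', hM, hM', hne, hs1, hs2⟩ := exists_sym h
  have hs : SymPair M M' := ⟨hM, hM', hne, hs1, hs2⟩
  haveI := Fintype.ofFinite (Subgroup G)
  let T := M ⊓ M'
  let Γ : Finset (Subgroup G) := Finset.univ.filter (fun L => InΓ (M ⊓ M') L)
  have hΓ : ∀ L, L ∈ Γ ↔ InΓ (M ⊓ M') L := by
    intro L
    simp [Γ]
  let X₀ : Set G := {x | x ∈ M ⊓ M' ∧ ∀ L, InΓ (M ⊓ M') L → x ∉ fittingOf L}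
  let X : Option Γ → Set G := fun i => match i with
    | none => X₀
    | some L => (fittingOf (L : Subgroup G) : Set G) \ {1}
  let N : Option Γ → Subgroup G := fun i => match i with
    | none => M ⊓ M'
    | some L => (L : Subgroup G)
  have hX1 : ∀ i, (1 : G) ∉ X i := by
    rintro (_ | L)
    · intro h1
      exact h1.2 M (inΓ_left hs) (one_mem _)
    · intro h1
      exact h1.2 rfl
  have hconj : ∀ i j x g, x ∈ X i → g * x * g⁻¹ ∈ X j → i = j ∧ g ∈ N i := by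
    rintro (_ | L) (_ | L') x g hx hgx
    · exact ⟨rfl, mixed_conj h hs hx.1 hx.2 hgx.1⟩
    · exact (mixed_fitting h ((hΓ _).mp L'.2) hx.1 (hx.2 _ ((hΓ _).mp L'.2)) hgx.1).elim
    · have e : g⁻¹ * (g * x * g⁻¹) * g⁻¹⁻¹ = x := by group
      exact (mixed_fitting h ((hΓ _).mp L.2) hgx.1 (hgx.2 _ ((hΓ _).mp L.2))
        (g := g⁻¹) (by rw [e]; exact hx.1)).elim
    · obtain ⟨e, hg⟩ := conj_fitting h ((hΓ _).mp L.2) ((hΓ _).mp L'.2) hx.1 hx.2 hgx.1
      exact ⟨congrArg some (Subtype.ext e), hg⟩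
  have hcount := count_disjoint X N hX1 hconj
  rw [Fintype.sum_option] at hcount
  have hsum : ∑ i : Γ, (N (some i)).index * (X (some i)).ncard =
      ∑ L ∈ Γ, L.index * (Nat.card (fittingOf L) - 1) := by
    rw [← Finset.sum_coe_sort Γ (fun L => L.index * (Nat.card (fittingOf L) - 1))]
    apply Finset.sum_congr rfl
    intro L _
    show (L : Subgroup G).index * (((fittingOf (L : Subgroup G) : Set G) \ {1}).ncard) = _
    rw [ncard_sub_one]
  rw [hsum] at hcount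
  have hcover := cover_bound Γ ((M ⊓ M' : Subgroup G) : Set G) X₀
    (fun L => ((fittingOf L ⊓ (M ⊓ M') : Subgroup G) : Set G) \ {1}) (by
      intro x hx
      by_cases hx1 : x = 1
      · exact Or.inl hx1
      by_cases hcov : ∃ L, InΓ (M ⊓ M') L ∧ x ∈ fittingOf L
      · obtain ⟨L, hL, hxL⟩ := hcov
        exact Or.inr (Or.inr ⟨L, (hΓ L).mpr hL, ⟨hxL, hx⟩, hx1⟩)
      · push Not at hcov
        exact Or.inr (Or.inl ⟨hx, hcov⟩))
  simp only [ncard_sub_one] at hcover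
  have hτ : ((M ⊓ M' : Subgroup G) : Set G).ncard = Nat.card (M ⊓ M' : Subgroup G) := rfl
  rw [hτ] at hcover
  refine numerics Γ (Nat.card G) (Nat.card (M ⊓ M' : Subgroup G)) X₀.ncard
    (M ⊓ M' : Subgroup G).index (fun L => L.index) (fun L => Nat.card L)
    (fun L => Nat.card (fittingOf L ⊓ (M ⊓ M') : Subgroup G)) (fun L => Nat.card (fittingOf L))
    Nat.card_pos Nat.card_pos (Subgroup.index_mul_card _) (fun L _ => Subgroup.index_mul_card L)
    (fun L hL => card_L h hs ((hΓ L).mp hL)) (fun L hL => two_le h hs ((hΓ L).mp hL))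
    (fun L _ => Nat.card_pos) hcover hcount ?_
  exact Finset.one_lt_card.mpr ⟨M, (hΓ M).mpr (inΓ_left hs), M', (hΓ M').mpr (inΓ_right hs), hne⟩

end Cfsg.Agent.Lib.BWNil4
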