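/-
HyperGen: the hyperfocal subgroup theorem in elementary form: `S ∩ O^p(G)` is contained in any
subgroup containing all `y⁻¹ n y n⁻¹` for `Q ≤ S`, `y ∈ Q`, `n ∈ O^p(N_V(Q))`, when `V` controls
the fusion of all subgroups of `S`.
-/
import Mathlib
import Cfsg.Agent.Lib.FusionFocal

set_option autoImplicit false

namespace Cfsg.Agent.Lib.HyperGen

open Cfsg Cfsg.FusionSystem Cfsg.Agent.Lib.FusionCore

variable {G : Type*} [Group G] [Finite G] {p : ℕ} [Fact p.Prime]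

theorem inf_pResidual_le (S : Sylow p G) (V : Subgroup G)
    (hV : ∀ Q : Subgroup G, Q ≤ S → ∀ g ∈ Subgroup.normalizer (Q : Set G),
      ∃ v ∈ Subgroup.normalizer (Q : Set G), v ∈ V ∧ ∀ y ∈ Q, g * y * g⁻¹ = v * y * v⁻¹)
    (D : Subgroup G)
    (hD : ∀ Q : Subgroup G, Q ≤ S → ∀ n : normalizerIn V Q, n ∈ pResidual p (normalizerIn V Q) →
      ∀ y ∈ Q, y⁻¹ * (n * y * (n : G)⁻¹) ∈ D) :
    (S : Subgroup G) ⊓ pResidual p G ≤ D := by
  rw [← Cfsg.Agent.Lib.FusionFocal.hyperfocal_eq S, FusionSystem.hyperfocalSubgroup,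
    Subgroup.closure_le]
  rintro _ ⟨Q, α, x, hQ, hα, rfl⟩
  have hA : (groupFusionSystem (S : Subgroup G)).autGroup Q = autInducedBy ⊤ Q :=
    Cfsg.Agent.S5076.autGroup_groupFusionSystem _ Q hQ
  have hπ : ∀ n, conjN V Q n ∈ (groupFusionSystem (S : Subgroup G)).autGroup Q := by
    intro n
    rw [hA, ← conjN_range]
    exact ⟨⟨n, trivial, n.2.2⟩, rfl⟩
  let π : normalizerIn V Q →* (groupFusionSystem (S : Subgroup G)).autGroup Q :=
    (conjN V Q).codRestrict _ hπ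
  have hsurj : Function.Surjective π := by
    rintro ⟨β, hβ⟩
    rw [hA, ← conjN_range] at hβ
    obtain ⟨n, rfl⟩ := hβ
    obtain ⟨v, hvN, hvV, hv⟩ := hV Q hQ n n.2.2
    refine ⟨⟨v, hvV, hvN⟩, ?_⟩
    apply Subtype.ext
    apply afn_ext
    intro y hy
    have h1 := afn_conjN (K := V) (P := Q) ⟨v, hvV, hvN⟩ hy
    have h2 := afn_conjN (K := ⊤) (P := Q) n hy
    show afn (conjN V Q ⟨v, hvV, hvN⟩) y = _
    rw [h1, h2, hv y hy]
  have h1 := Cfsg.Agent.Lib.PResid.map_pResidual_of_surjective π hsurj p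
  rw [← h1] at hα
  obtain ⟨n, hn, hnα⟩ := hα
  have h2 : (((α : MulAut Q) x : Q) : G) = n * x * (n : G)⁻¹ := by
    rw [← hnα, ← afn_coe]
    exact afn_conjN n x.2
  show (x : G)⁻¹ * (((α : MulAut Q) x : Q) : G) ∈ _
  rw [h2]
  exact hD Q hQ n hn x x.2

end Cfsg.Agent.Lib.HyperGen
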