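/-
BWNil5: left-normed commutator values and generation of Sylow subgroups by values.
-/
import Mathlib
import Cfsg.Agent.Lib.BWNil4
import Cfsg.Agent.Lib.HyperGen

set_option autoImplicit false
set_option linter.unusedSectionVars false
set_option linter.unusedVariables false
set_option linter.style.haveILetI false
set_option linter.unusedSimpArgs false

namespace Cfsg.Agent.Lib.BWNil5

open Cfsg Subgroup Cfsg.Agent.Lib.CoprimeInv Cfsg.Agent.Lib.PCore Cfsg.Agent.Lib.BGUniq
  Cfsg.Agent.Lib.BGFit1 Cfsg.Agent.Lib.BGFit2 Cfsg.Agent.Lib.BWNil1 Cfsg.Agent.Lib.BWNil2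
  Cfsg.Agent.Lib.BWNil3 Cfsg.Agent.Lib.BWNil4 Cfsg.FusionSystem

universe u

/-- Left-normed commutator values of length `k + 1`. -/
def valSet (G : Type*) [Group G] : ℕ → Set G
  | 0 => Set.univ
  | k + 1 => {x | ∃ y ∈ valSet G k, ∃ g : G, x = y * g * y⁻¹ * g⁻¹}

section values

variable {G : Type*} [Group G]

theorem mem_valSet_iff (k : ℕ) (x : G) :
    (∃ f : Fin (k + 1) → G, x = ((List.ofFn f).tail).foldl (fun a b => a * b * a⁻¹ * b⁻¹) (f 0)) ↔
      x ∈ valSet G k := by
  induction k generalizing x with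
  | zero =>
    simp only [valSet, Set.mem_univ, iff_true]
    exact ⟨fun _ => x, by simp⟩
  | succ k ih =>
    have key : ∀ f : Fin (k + 1 + 1) → G,
        ((List.ofFn f).tail).foldl (fun a b => a * b * a⁻¹ * b⁻¹) (f 0) =
          (fun a b => a * b * a⁻¹ * b⁻¹)
            (((List.ofFn (fun i : Fin (k + 1) => f i.castSucc)).tail).foldl
              (fun a b => a * b * a⁻¹ * b⁻¹) (f 0)) (f (Fin.last _)) := by
      intro f
      rw [List.ofFn_succ' f]
      have h1 : ∀ (l : List G) (a : G), l ≠ [] → (l.concat a).tail = l.tail.concat a := by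
        intro l a hl
        cases l with
        | nil => exact absurd rfl hl
        | cons b l => simp
      rw [h1 _ _ (by simp), List.concat_eq_append, List.foldl_append]
      rfl
    constructor
    · rintro ⟨f, rfl⟩
      rw [key f]
      refine ⟨_, (ih _).mp ⟨fun i => f i.castSucc, ?_⟩, f (Fin.last _), rfl⟩
      rfl
    · rintro ⟨y, hy, g, rfl⟩
      obtain ⟨f, rfl⟩ := (ih y).mpr hy
      refine ⟨Fin.snoc f g, ?_⟩
      rw [key]
      have h1 : (fun i : Fin (k + 1) => (Fin.snoc f g : Fin (k + 1 + 1) → G) i.castSucc) = f := by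
        funext i
        simp
      have h2 : (Fin.snoc f g : Fin (k + 1 + 1) → G) (Fin.last _) = g := by simp
      have h3 : (Fin.snoc f g : Fin (k + 1 + 1) → G) 0 = f 0 := by
        have := congrFun h1 0
        exact this
      simp only [h1, h2, h3]

theorem valSet_conj {k : ℕ} {x : G} (hx : x ∈ valSet G k) (g : G) : g * x * g⁻¹ ∈ valSet G k := by
  induction k generalizing x with
  | zero => trivial
  | succ k ih =>
    obtain ⟨y, hy, a, rfl⟩ := hx
    refine ⟨g * y * g⁻¹, ih hy, g * a * g⁻¹, ?_⟩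
    group

theorem valSet_succ_subset {k : ℕ} {x : G} (hx : x ∈ valSet G (k + 1)) : x ∈ valSet G k := by
  induction k generalizing x with
  | zero => trivial
  | succ k ih =>
    obtain ⟨y, hy, a, rfl⟩ := hx
    exact ⟨y, ih hy, a, rfl⟩

theorem comm_mem_valSet {k : ℕ} {x : G} (hx : x ∈ valSet G k) (g : G) :
    x * g * x⁻¹ * g⁻¹ ∈ valSet G k :=
  valSet_succ_subset ⟨x, hx, g, rfl⟩

theorem mem_lcs {k : ℕ} {x : G} (hx : x ∈ valSet G k) : x ∈ (⊤ : Subgroup G).lowerCentralSeries k := by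
  induction k generalizing x with
  | zero => trivial
  | succ k ih =>
    obtain ⟨y, hy, a, rfl⟩ := hx
    rw [Subgroup.lowerCentralSeries_succ]
    exact Subgroup.commutator_mem_commutator (ih hy) (mem_top a)

theorem conj_mem_closure_inter {S : Subgroup G} {V : Set G}
    (hV : ∀ x ∈ V, ∀ g : G, g * x * g⁻¹ ∈ V) {s : G} (hs : s ∈ S) {e : G}
    (he : e ∈ closure ((S : Set G) ∩ V)) : s * e * s⁻¹ ∈ closure ((S : Set G) ∩ V) := by
  induction he using Subgroup.closure_induction with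
  | mem x hx => exact subset_closure ⟨S.mul_mem (S.mul_mem hs hx.1) (S.inv_mem hs), hV x hx.2 s⟩
  | one => simp
  | mul x y _ _ h1 h2 =>
    have : s * (x * y) * s⁻¹ = (s * x * s⁻¹) * (s * y * s⁻¹) := by group
    rw [this]
    exact mul_mem h1 h2
  | inv x _ h1 =>
    have : s * x⁻¹ * s⁻¹ = (s * x * s⁻¹)⁻¹ := by group
    rw [this]
    exact inv_mem h1

theorem lcs_le_closure (S : Subgroup G) (k : ℕ) :
    S.lowerCentralSeries k ≤ closure ((S : Set G) ∩ valSet G k) := by
  induction k with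
  | zero =>
    intro x hx
    exact subset_closure ⟨hx, trivial⟩
  | succ k ih =>
    rw [Subgroup.lowerCentralSeries_succ, Subgroup.commutator_le]
    intro x hx g hg
    have hxc := ih hx
    have hleS : closure ((S : Set G) ∩ valSet G k) ≤ S :=
      (closure_le S).mpr Set.inter_subset_left
    have key : ∀ x ∈ closure ((S : Set G) ∩ valSet G k),
        x * g * x⁻¹ * g⁻¹ ∈ closure ((S : Set G) ∩ valSet G (k + 1)) := by
      intro x hx
      induction hx using Subgroup.closure_induction with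
      | mem x hx =>
        refine subset_closure ⟨?_, ⟨x, hx.2, g, rfl⟩⟩
        exact S.mul_mem (S.mul_mem (S.mul_mem hx.1 hg) (S.inv_mem hx.1)) (S.inv_mem hg)
      | one => simp
      | mul a b ha hb h1 h2 =>
        have e : (a * b) * g * (a * b)⁻¹ * g⁻¹ =
            (a * (b * g * b⁻¹ * g⁻¹) * a⁻¹) * (a * g * a⁻¹ * g⁻¹) := by group
        rw [e]
        exact mul_mem (conj_mem_closure_inter (fun x hx g => valSet_conj hx g) (hleS ha) h2) h1
      | inv a ha h1 =>
        have e : a⁻¹ * g * a⁻¹⁻¹ * g⁻¹ = a⁻¹ * (a * g * a⁻¹ * g⁻¹)⁻¹ * a⁻¹⁻¹ := by group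
        rw [e]
        exact conj_mem_closure_inter (fun x hx g => valSet_conj hx g) (S.inv_mem (hleS ha))
          (inv_mem h1)
    have := key x hxc
    rw [commutatorElement_def]
    exact this

/-- `val` in a subgroup gives `val` in the group. -/
theorem coe_mem_valSet (H : Subgroup G) {k : ℕ} {x : H} (hx : x ∈ valSet H k) :
    (x : G) ∈ valSet G k := by
  induction k generalizing x with
  | zero => trivial
  | succ k ih =>
    obtain ⟨y, hy, a, rfl⟩ := hx
    exact ⟨y, ih hy, a, by simp⟩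

end values

/-- The commutator condition. -/
def Star (k : ℕ) (G : Type*) [Group G] : Prop :=
  ∀ x ∈ valSet G k, ∀ g : G, (orderOf (x * g * x⁻¹ * g⁻¹)).Coprime (orderOf x) →
    x * g * x⁻¹ * g⁻¹ = 1

theorem Star.subgroup {k : ℕ} {G : Type*} [Group G] (h : Star k G) (H : Subgroup G) : Star k H := by
  intro x hx g hc
  have h1 : (orderOf ((x : G) * (g : G) * (x : G)⁻¹ * (g : G)⁻¹)).Coprime (orderOf (x : G)) := by
    have e : (x : G) * (g : G) * (x : G)⁻¹ * (g : G)⁻¹ = ((x * g * x⁻¹ * g⁻¹ : H) : G) := by simp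
    rw [e, Subgroup.orderOf_coe, Subgroup.orderOf_coe]
    exact hc
  have h2 := h (x : G) (coe_mem_valSet H hx) g h1
  apply Subtype.ext
  simpa using h2

section gen

variable {G : Type u} [Group G] [Finite G]

theorem coprime_comm_lemma {q : ℕ} [Fact q.Prime] (E : Subgroup G) {w t c : G}
    (hw : w ∈ normalizer (E : Set G)) (ht : t ∈ normalizer (E : Set G))
    (hc : c ∈ normalizer (E : Set G)) (hq : ∃ a : ℕ, t ^ q ^ a = 1)
    (hco : (orderOf c).Coprime q) (h1 : w * c * w⁻¹ * c⁻¹ = t) (h2 : t * c * t⁻¹ * c⁻¹ ∈ E) :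
    t ∈ E := by
  let X := normalizer (E : Set G)
  haveI hn : (E.subgroupOf X).Normal := normal_subgroupOf_of_le_normalizer le_rfl
  let π := QuotientGroup.mk' (E.subgroupOf X)
  let w' : X := ⟨w, hw⟩
  let t' : X := ⟨t, ht⟩
  let c' : X := ⟨c, hc⟩
  have e1 : t' * c' * t'⁻¹ * c'⁻¹ ∈ E.subgroupOf X := by
    rw [Subgroup.mem_subgroupOf]
    exact h2
  have e2 : π t' * π c' = π c' * π t' := by
    have h3 : π (t' * c' * t'⁻¹ * c'⁻¹) = 1 := by
      rw [← MonoidHom.mem_ker, QuotientGroup.ker_mk']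
      exact e1
    rw [map_mul, map_mul, map_mul, map_inv, map_inv] at h3
    calc π t' * π c' = (π t' * π c' * (π t')⁻¹ * (π c')⁻¹) * (π c' * π t') := by group
      _ = π c' * π t' := by rw [h3, one_mul]
  have e3 : w' * c' * w'⁻¹ = t' * c' := by
    apply Subtype.ext
    show w * c * w⁻¹ = t * c
    rw [← h1]
    group
  have e4 : (π c') ^ orderOf c = 1 := by
    rw [← map_pow]
    have : c' ^ orderOf c = 1 := by
      apply Subtype.ext
      show c ^ orderOf c = 1
      exact pow_orderOf_eq_one c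
    rw [this, map_one]
  have e5 : (π t') ^ orderOf c = 1 := by
    have h3 : π w' * π c' * (π w')⁻¹ = π t' * π c' := by
      rw [← map_inv, ← map_mul, ← map_mul, e3, map_mul]
    have h4 : (π w' * π c' * (π w')⁻¹) ^ orderOf c = 1 := by
      rw [conj_pow, e4]; group
    rw [h3, (show Commute (π t') (π c') from e2).mul_pow, e4, mul_one] at h4
    exact h4
  obtain ⟨a, ha⟩ := hq
  have e6 : (π t') ^ q ^ a = 1 := by
    rw [← map_pow]
    have : t' ^ q ^ a = 1 := by
      apply Subtype.ext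
      show t ^ q ^ a = 1
      exact ha
    rw [this, map_one]
  have e7 : π t' = 1 := Cfsg.Agent.Lib.PResid.eq_one_of_pow_eq_one_of_coprime e6 e5 hco
  have e8 : t' ∈ E.subgroupOf X := by
    rw [← QuotientGroup.ker_mk' (E.subgroupOf X), MonoidHom.mem_ker]
    exact e7
  exact e8

theorem comm_chain {q : ℕ} [Fact q.Prime] (k : ℕ) {Q : Subgroup G} (hQ : IsPGroup q Q) {c : G}
    (hc : c ∈ normalizer (Q : Set G)) (hco : (orderOf c).Coprime q) :
    ∀ v ∈ Q, v * c * v⁻¹ * c⁻¹ ∈ closure ((Q : Set G) ∩ valSet G k) := by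
  set E₁ := closure ((Q : Set G) ∩ valSet G k) with hE₁
  let f : G → G := fun w => w * c * w⁻¹ * c⁻¹
  have hfQ : ∀ w ∈ Q, f w ∈ Q := by
    intro w hw
    have h1 : c * w⁻¹ * c⁻¹ ∈ Q := (Subgroup.mem_normalizer_iff.mp hc _).mp (Q.inv_mem hw)
    have e : f w = w * (c * w⁻¹ * c⁻¹) := by
      show w * c * w⁻¹ * c⁻¹ = _
      group
    rw [e]
    exact Q.mul_mem hw h1
  have hiterQ : ∀ (m : ℕ) (w : G), w ∈ Q → f^[m] w ∈ Q := by
    intro m w hw
    induction m with
    | zero => exact hw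
    | succ m ih =>
      rw [Function.iterate_succ_apply']
      exact hfQ _ ih
  have hiterV : ∀ (m : ℕ) (w : G), f^[m] w ∈ valSet G m := by
    intro m w
    induction m with
    | zero => trivial
    | succ m ih =>
      rw [Function.iterate_succ_apply']
      exact ⟨_, ih, c, rfl⟩
  have hk1 : ∀ w ∈ Q, f^[k + 1] w ∈ E₁ := by
    intro w hw
    rw [Function.iterate_succ_apply]
    exact subset_closure ⟨hiterQ k _ (hfQ w hw), hiterV k _⟩
  have hNQ : ∀ g ∈ Q, g ∈ normalizer (E₁ : Set G) := by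
    intro g hg
    rw [Subgroup.mem_normalizer_iff]
    intro e
    constructor
    · intro he
      exact conj_mem_closure_inter (fun x hx g => valSet_conj hx g) hg he
    · intro he
      have h1 := conj_mem_closure_inter (fun x hx g => valSet_conj hx g) (Q.inv_mem hg) he
      have e2 : g⁻¹ * (g * e * g⁻¹) * g⁻¹⁻¹ = e := by group
      rwa [e2] at h1
  have hNc' : ∀ g ∈ normalizer (Q : Set G), ∀ e ∈ E₁, g * e * g⁻¹ ∈ E₁ := by
    intro g hg e he
    induction he using Subgroup.closure_induction with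
    | mem x hx =>
      exact subset_closure ⟨(Subgroup.mem_normalizer_iff.mp hg _).mp hx.1, valSet_conj hx.2 g⟩
    | one => simp
    | mul x y _ _ h1 h2 =>
      have : g * (x * y) * g⁻¹ = (g * x * g⁻¹) * (g * y * g⁻¹) := by group
      rw [this]
      exact mul_mem h1 h2
    | inv x _ h1 =>
      have : g * x⁻¹ * g⁻¹ = (g * x * g⁻¹)⁻¹ := by group
      rw [this]
      exact inv_mem h1
  have hNc : c ∈ normalizer (E₁ : Set G) := by
    rw [Subgroup.mem_normalizer_iff]
    intro e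
    constructor
    · exact hNc' c hc e
    · intro he
      have h1 := hNc' c⁻¹ (inv_mem hc) _ he
      have e2 : c⁻¹ * (c * e * c⁻¹) * c⁻¹⁻¹ = e := by group
      rwa [e2] at h1
  have step : ∀ m : ℕ, (∀ w ∈ Q, f^[m + 2] w ∈ E₁) → ∀ w ∈ Q, f^[m + 1] w ∈ E₁ := by
    intro m hm w hw
    have h1 : f^[m + 1] w = f (f^[m] w) := Function.iterate_succ_apply' f m w
    have h2 : f^[m + 2] w = f (f^[m + 1] w) := Function.iterate_succ_apply' f (m + 1) w
    have hw' := hiterQ m w hw
    have ht := hiterQ (m + 1) w hw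
    refine coprime_comm_lemma E₁ (w := f^[m] w) (c := c) (hNQ _ hw') (hNQ _ ht) hNc
      (Cfsg.Agent.Lib.PResid.exists_pow_eq_one_of_isPGroup hQ ht) hco h1.symm ?_
    have := hm w hw
    rw [h2] at this
    exact this
  have down : ∀ m : ℕ, (∀ w ∈ Q, f^[m + 1] w ∈ E₁) → ∀ w ∈ Q, f w ∈ E₁ := by
    intro m
    induction m with
    | zero => exact fun h => h
    | succ m ih => exact fun h => ih (step m h)
  exact down k hk1

theorem hyper {q : ℕ} [Fact q.Prime] (k : ℕ) {Q : Subgroup G} (hQ : IsPGroup q Q)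
    (n : normalizerIn ⊤ Q) (hn : n ∈ pResidual q (normalizerIn ⊤ Q)) :
    ∀ y ∈ Q, y⁻¹ * ((n : G) * y * (n : G)⁻¹) ∈ closure ((Q : Set G) ∩ valSet G k) := by
  have hNc' : ∀ g ∈ normalizer (Q : Set G), ∀ e ∈ closure ((Q : Set G) ∩ valSet G k),
      g * e * g⁻¹ ∈ closure ((Q : Set G) ∩ valSet G k) := by
    intro g hg e he
    induction he using Subgroup.closure_induction with
    | mem x hx =>
      exact subset_closure ⟨(Subgroup.mem_normalizer_iff.mp hg _).mp hx.1, valSet_conj hx.2 g⟩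
    | one => simp
    | mul x y _ _ h1 h2 =>
      have : g * (x * y) * g⁻¹ = (g * x * g⁻¹) * (g * y * g⁻¹) := by group
      rw [this]
      exact mul_mem h1 h2
    | inv x _ h1 =>
      have : g * x⁻¹ * g⁻¹ = (g * x * g⁻¹)⁻¹ := by group
      rw [this]
      exact inv_mem h1
  induction hn using Subgroup.closure_induction with
  | mem n hn =>
    intro y hy
    have h1 : (orderOf (n : G)).Coprime q := by
      rw [Subgroup.orderOf_coe]
      exact hn
    have h2 := comm_chain k hQ n.2.2 h1 y⁻¹ (Q.inv_mem hy)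
    have e : y⁻¹ * ((n : G) * y * (n : G)⁻¹) = y⁻¹ * (n : G) * y⁻¹⁻¹ * (n : G)⁻¹ := by group
    rw [e]
    exact h2
  | one =>
    intro y hy
    simp
  | mul n₁ n₂ _ _ h1 h2 =>
    intro y hy
    have e : y⁻¹ * (((n₁ * n₂ : normalizerIn ⊤ Q) : G) * y * ((n₁ * n₂ : normalizerIn ⊤ Q) : G)⁻¹) =
        (y⁻¹ * ((n₁ : G) * y * (n₁ : G)⁻¹)) *
          ((n₁ : G) * (y⁻¹ * ((n₂ : G) * y * (n₂ : G)⁻¹)) * (n₁ : G)⁻¹) := by
      simp only [Subgroup.coe_mul]
      group
    rw [e]
    exact mul_mem (h1 y hy) (hNc' _ n₁.2.2 _ (h2 y hy))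
  | inv n _ h1 =>
    intro y hy
    have hz : (n : G)⁻¹ * y * (n : G)⁻¹⁻¹ ∈ Q :=
      (Subgroup.mem_normalizer_iff.mp (inv_mem n.2.2) _).mp hy
    have h2 := h1 _ hz
    have e : ((n⁻¹ : normalizerIn ⊤ Q) : G) = (n : G)⁻¹ := rfl
    rw [e]
    have e2 : ((n : G)⁻¹ * y * (n : G)⁻¹⁻¹)⁻¹ * ((n : G) * ((n : G)⁻¹ * y * (n : G)⁻¹⁻¹) * (n : G)⁻¹) =
        (y⁻¹ * ((n : G)⁻¹ * y * (n : G)⁻¹⁻¹))⁻¹ := by group
    rw [e2] at h2
    have h3 := inv_mem h2
    rwa [inv_inv] at h3

/-- Sylow subgroups of `γ_{k+1}(G)` are generated by values. -/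
theorem sylow_gen {q : ℕ} [Fact q.Prime] (S : Sylow q G) (k : ℕ) :
    (S : Subgroup G) ⊓ (⊤ : Subgroup G).lowerCentralSeries k ≤
      closure (((S : Subgroup G) : Set G) ∩ valSet G k) := by
  set E := closure (((S : Subgroup G) : Set G) ∩ valSet G k) with hE
  have h1 : (S : Subgroup G) ⊓ pResidual q G ≤ E := by
    apply Cfsg.Agent.Lib.HyperGen.inf_pResidual_le S ⊤
      (fun Q hQ g hg => ⟨g, hg, trivial, fun y hy => rfl⟩) E
    intro Q hQ n hn y hy
    have h2 := hyper k (S.2.to_le hQ) n hn y hy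
    exact (closure_mono (Set.inter_subset_inter_left _ hQ)) h2
  haveI hRn : (pResidual q G).Normal := Cfsg.Agent.Lib.PResid.pResidual_normal q
  let f := QuotientGroup.mk' (pResidual q G)
  have hSf : (S : Subgroup G).map f = ⊤ := by
    have h2 := Cfsg.Agent.Lib.PResid.sylow_sup_pResidual S
    have h3 : ((S : Subgroup G) ⊔ pResidual q G).map f = ⊤ := by
      rw [h2, ← MonoidHom.range_eq_map]
      exact MonoidHom.range_eq_top.mpr (QuotientGroup.mk'_surjective _)
    rw [Subgroup.map_sup] at h3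
    have h4 : (pResidual q G).map f = ⊥ := by
      rw [Subgroup.map_eq_bot_iff, QuotientGroup.ker_mk']
    rw [h4, sup_bot_eq] at h3
    exact h3
  have hTf : (⊤ : Subgroup G).map f = ⊤ := by
    rw [← MonoidHom.range_eq_map]
    exact MonoidHom.range_eq_top.mpr (QuotientGroup.mk'_surjective _)
  rintro u ⟨huS, huL⟩
  have h2 : f u ∈ ((S : Subgroup G).lowerCentralSeries k).map f := by
    rw [map_lowerCentralSeries, hSf, ← hTf, ← map_lowerCentralSeries]
    exact mem_map_of_mem f huL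
  obtain ⟨u₁, hu₁, hfu⟩ := h2
  have hu₁S : u₁ ∈ (S : Subgroup G) := Subgroup.lowerCentralSeries_le_self _ _ hu₁
  have hr : u₁⁻¹ * u ∈ pResidual q G := by
    rw [← QuotientGroup.ker_mk' (pResidual q G), MonoidHom.mem_ker, map_mul, map_inv]
    show (f u₁)⁻¹ * f u = 1
    rw [hfu, inv_mul_cancel]
  have h3 : u₁⁻¹ * u ∈ E := h1 ⟨(S : Subgroup G).mul_mem ((S : Subgroup G).inv_mem hu₁S) huS, hr⟩
  have h4 : u₁ ∈ E := lcs_le_closure (S : Subgroup G) k hu₁
  have e : u = u₁ * (u₁⁻¹ * u) := by group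
  rw [e]
  exact mul_mem h4 h3

/-- A value which is a `q`-element centralizes every `q'`-subgroup it normalizes. -/
theorem star_comm {k : ℕ} (hS : Star k G) {q : ℕ} [Fact q.Prime] {x : G} (hx : x ∈ valSet G k)
    (hp : ∃ n : ℕ, x ^ q ^ n = 1) {U : Subgroup G} (hU : (Nat.card U).Coprime q)
    (hxU : x ∈ normalizer (U : Set G)) : ∀ u ∈ U, x * u = u * x := by
  intro u hu
  have h1 : x * u * x⁻¹ ∈ U := (Subgroup.mem_normalizer_iff.mp hxU _).mp hu
  have h2 : x * u * x⁻¹ * u⁻¹ ∈ U := U.mul_mem h1 (U.inv_mem hu)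
  obtain ⟨n, hn⟩ := hp
  have h3 : (orderOf (x * u * x⁻¹ * u⁻¹)).Coprime (orderOf x) :=
    Nat.Coprime.coprime_dvd_left (Subgroup.orderOf_dvd_natCard U h2)
      (Nat.Coprime.coprime_dvd_right (orderOf_dvd_of_pow_eq_one hn) (Nat.Coprime.pow_right _ hU))
  have h4 := hS x hx u h3
  calc x * u = (x * u * x⁻¹ * u⁻¹) * (u * x) := by group
    _ = u * x := by rw [h4, one_mul]

end gen

end Cfsg.Agent.Lib.BWNil5
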