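/-
BWNil6: the solvable case, and generalities on lower central series quotients.
-/
import Mathlib
import Cfsg.Agent.Lib.BWNil5

set_option autoImplicit false
set_option linter.unusedSectionVars false
set_option linter.unusedVariables false
set_option linter.style.haveILetI false
set_option linter.unusedSimpArgs false
set_option linter.deprecated false

namespace Cfsg.Agent.Lib.BWNil6

open Cfsg Subgroup Cfsg.Agent.Lib.CoprimeInv Cfsg.Agent.Lib.PCore Cfsg.Agent.Lib.BGUniq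
  Cfsg.Agent.Lib.BGFit1 Cfsg.Agent.Lib.BGFit2 Cfsg.Agent.Lib.BWNil1 Cfsg.Agent.Lib.BWNil2
  Cfsg.Agent.Lib.BWNil3 Cfsg.Agent.Lib.BWNil4 Cfsg.Agent.Lib.BWNil5

universe u

section generic

/-- A finite group in which elements of coprime prime power orders commute is nilpotent. -/
theorem isNilpotent_of_commute_prime_power {T : Type*} [Group T] [Finite T]
    (hc : ∀ r p : ℕ, r.Prime → p.Prime → r ≠ p → ∀ u v : T, (∃ n : ℕ, u ^ r ^ n = 1) →
      (∃ n : ℕ, v ^ p ^ n = 1) → u * v = v * u) : Group.IsNilpotent T := by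
  refine ((Group.isNilpotent_of_finite_tfae (G := T)).out 0 3 rfl rfl).mpr ?_
  intro p hp P
  rw [← Subgroup.normalizer_eq_top_iff]
  by_contra hne
  have hidx : (normalizer ((P : Subgroup T) : Set T)).index ≠ 1 := by
    rwa [Ne, Subgroup.index_eq_one]
  obtain ⟨r, hr, hrd⟩ := Nat.exists_prime_and_dvd hidx
  haveI : Fact r.Prime := ⟨hr⟩
  obtain ⟨R⟩ : Nonempty (Sylow r T) := inferInstance
  have key : ∃ R : Sylow r T, (R : Subgroup T) ≤ normalizer ((P : Subgroup T) : Set T) := by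
    by_cases hrp : r = p
    · subst hrp
      exact ⟨P, Subgroup.le_normalizer⟩
    · refine ⟨R, ?_⟩
      intro u hu
      have hcomm : ∀ v ∈ (P : Subgroup T), u * v = v * u := fun v hv =>
        hc r p hr hp.out hrp u v (Cfsg.Agent.Lib.PResid.exists_pow_eq_one_of_isPGroup R.2 hu)
          (Cfsg.Agent.Lib.PResid.exists_pow_eq_one_of_isPGroup P.2 hv)
      exact mem_normalizer_of_centralizes (fun a ha => by rw [hcomm a ha]; group)
  obtain ⟨R', hR'⟩ := key
  have h1 : (R' : Subgroup T).relIndex (normalizer ((P : Subgroup T) : Set T)) *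
      (normalizer ((P : Subgroup T) : Set T)).index = (R' : Subgroup T).index :=
    Subgroup.relIndex_mul_index hR'
  exact R'.not_dvd_index (hrd.trans ⟨_, by rw [← h1, mul_comm]⟩)

theorem quot_nil {X : Type*} [Group X] (k : ℕ) (K : Subgroup X) [K.Normal]
    (hK : (⊤ : Subgroup X).lowerCentralSeries k ≤ K) : Group.IsNilpotent (X ⧸ K) := by
  rw [Subgroup.nilpotent_iff_lowerCentralSeries]
  refine ⟨k, ?_⟩
  have h1 : (⊤ : Subgroup X).map (QuotientGroup.mk' K) = ⊤ := by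
    rw [← MonoidHom.range_eq_map]
    exact MonoidHom.range_eq_top.mpr (QuotientGroup.mk'_surjective _)
  rw [← h1, ← map_lowerCentralSeries, Subgroup.map_eq_bot_iff, QuotientGroup.ker_mk']
  exact hK

theorem solvable_of_nil_lcs {X : Type*} [Group X] (k : ℕ)
    (h : Group.IsNilpotent ↥((⊤ : Subgroup X).lowerCentralSeries k)) : Group.IsSolvable X := by
  haveI := h
  haveI : Group.IsNilpotent (X ⧸ (⊤ : Subgroup X).lowerCentralSeries k) := quot_nil k _ le_rfl
  exact solvable_of_ker_le_range ((⊤ : Subgroup X).lowerCentralSeries k).subtype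
    (QuotientGroup.mk' ((⊤ : Subgroup X).lowerCentralSeries k)) (by simp)

theorem lcs_quot {X Y : Type*} [Group X] [Group Y] (ψ : X →* Y) (hs : Function.Surjective ψ) (k : ℕ)
    (hn : Group.IsNilpotent ↥((⊤ : Subgroup X).lowerCentralSeries k)) :
    Group.IsSolvable Y ∧ Group.IsNilpotent (Y ⧸ fittingSubgroup Y) := by
  haveI := hn
  have e : ((⊤ : Subgroup X).lowerCentralSeries k).map ψ = (⊤ : Subgroup Y).lowerCentralSeries k := by
    rw [map_lowerCentralSeries, ← MonoidHom.range_eq_map, MonoidHom.range_eq_top.mpr hs]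
  have h1 : Group.IsNilpotent ↥(((⊤ : Subgroup X).lowerCentralSeries k).map ψ) :=
    Group.nilpotent_of_surjective (ψ.subgroupMap _) (ψ.subgroupMap_surjective _)
  rw [e] at h1
  refine ⟨solvable_of_nil_lcs k h1, ?_⟩
  exact quot_nil k _ (le_fittingSubgroup inferInstance h1)

end generic

variable {G : Type u} [Group G] [Finite G] {k : ℕ}

/-- A `q`-element of `γ` centralizes `O_{q'}(F(γ))`. -/
theorem central_on_x (hS : Star k G) {q : ℕ} [Fact q.Prime] {u : G}
    (hu : u ∈ (⊤ : Subgroup G).lowerCentralSeries k) (hp : ∃ n : ℕ, u ^ q ^ n = 1) :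
    ∀ b ∈ xOf q ((⊤ : Subgroup G).lowerCentralSeries k), u * b = b * u := by
  set N := (⊤ : Subgroup G).lowerCentralSeries k with hN
  obtain ⟨S, hSu⟩ := (isPGroup_zpowers_of_pelt hp).exists_le_sylow
  have huS : u ∈ (S : Subgroup G) := hSu (mem_zpowers u)
  have h1 := sylow_gen S k ⟨huS, hu⟩
  have h2 : closure (((S : Subgroup G) : Set G) ∩ valSet G k) ≤ centralizer (xOf q N : Set G) := by
    rw [Subgroup.closure_le]
    rintro x ⟨hxS, hxV⟩
    exact mem_centralizer_of_forall (star_comm hS hxV (pelt_of_mem S.2 hxS) coprime_xOf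
      (le_normalizer_xOf (mem_lcs hxV)))
  intro b hb
  exact centralizes_of_mem_centralizer (h2 h1) hb

theorem t_core (hS : Star k G) {q : ℕ} [Fact q.Prime] {u g : G}
    (hu : u ∈ (⊤ : Subgroup G).lowerCentralSeries k) (hp : ∃ n : ℕ, u ^ q ^ n = 1)
    (htF : u⁻¹ * (g * u * g⁻¹) ∈ fittingOf ((⊤ : Subgroup G).lowerCentralSeries k)) :
    u⁻¹ * (g * u * g⁻¹) ∈ pCoreOf q ((⊤ : Subgroup G).lowerCentralSeries k) := by
  set N := (⊤ : Subgroup G).lowerCentralSeries k with hN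
  obtain ⟨a, ha, b, hb, hdec⟩ := fitting_decomp q N htF
  have hz : ∃ n : ℕ, (g * u * g⁻¹) ^ q ^ n = 1 := by
    obtain ⟨n, hn⟩ := hp
    exact ⟨n, by rw [conj_pow, hn]; group⟩
  have hPp : IsPGroup q (zpowers u ⊔ pCoreOf q N : Subgroup G) :=
    isPGroup_sup_of_le_normalizer (isPGroup_zpowers_of_pelt hp) (isPGroup_pCoreOf q N)
      (zpowers_le.mpr (le_normalizer_pCoreOf q N hu))
  have hy : ∃ n : ℕ, (u * a) ^ q ^ n = 1 := by
    refine pelt_of_mem hPp (mul_mem ?_ ?_)
    · exact (le_sup_left : zpowers u ≤ _) (mem_zpowers u)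
    · exact (le_sup_right : pCoreOf q N ≤ _) ha
  have hcomm : u * a * b = b * (u * a) := by
    have h1 := central_on_x hS hu hp b hb
    have h2 := comm_V_X a ha b hb
    calc u * a * b = u * (a * b) := by group
      _ = u * (b * a) := by rw [h2]
      _ = (u * b) * a := by group
      _ = (b * u) * a := by rw [h1]
      _ = b * (u * a) := by group
  have e : g * u * g⁻¹ = u * a * b := by
    have h1 : g * u * g⁻¹ = u * (u⁻¹ * (g * u * g⁻¹)) := by group
    rw [h1, hdec]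
    group
  have hb1 : b = 1 := eq_one_of_pelt_mul hz hy e hcomm (pow_card_of_mem hb) coprime_xOf
  rw [hdec, hb1, mul_one]
  exact ha

theorem commute_primes (hS : Star k G)
    (hs : Group.IsSolvable ↥((⊤ : Subgroup G).lowerCentralSeries k)) {q p : ℕ} [Fact q.Prime]
    [Fact p.Prime] (hqp : q ≠ p) {u v : G} (hu : u ∈ (⊤ : Subgroup G).lowerCentralSeries k)
    (hv : v ∈ (⊤ : Subgroup G).lowerCentralSeries k) (hup : ∃ n : ℕ, u ^ q ^ n = 1)
    (hvp : ∃ n : ℕ, v ^ p ^ n = 1) : u * v = v * u := by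
  set N := (⊤ : Subgroup G).lowerCentralSeries k with hN
  have huN : u ∈ N := hu
  have hvN : v ∈ N := hv
  have hcu := central_on_x hS hu hup
  have hcv := central_on_x hS hv hvp
  set t := u⁻¹ * (v * u * v⁻¹) with ht
  have htN : t ∈ N := mul_mem (inv_mem huN) (mul_mem (mul_mem hvN huN) (inv_mem hvN))
  have htb : ∀ b ∈ xOf q N, t * b = b * t := by
    intro b hb
    have hb₁ : v⁻¹ * b * v⁻¹⁻¹ ∈ xOf q N :=
      (Subgroup.mem_normalizer_iff.mp (le_normalizer_xOf (inv_mem hvN)) b).mp hb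
    have h1 := hcu _ hb₁
    have h2 := hcu b hb
    have h3 : u * (v⁻¹ * b * v) = (v⁻¹ * b * v) * u := by
      simpa using h1
    have h4 : u⁻¹ * b = b * u⁻¹ := by
      calc u⁻¹ * b = u⁻¹ * (b * u) * u⁻¹ := by group
        _ = u⁻¹ * (u * b) * u⁻¹ := by rw [h2]
        _ = b * u⁻¹ := by group
    calc t * b = u⁻¹ * v * (u * (v⁻¹ * b * v)) * v⁻¹ := by rw [ht]; group
      _ = u⁻¹ * v * ((v⁻¹ * b * v) * u) * v⁻¹ := by rw [h3]
      _ = (u⁻¹ * b) * v * u * v⁻¹ := by group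
      _ = (b * u⁻¹) * v * u * v⁻¹ := by rw [h4]
      _ = b * t := by rw [ht]; group
  have hta : ∀ a ∈ pCoreOf q N, t * a = a * t := by
    intro a ha
    have ha₂ : u * a * u⁻¹ ∈ pCoreOf q N :=
      (Subgroup.mem_normalizer_iff.mp (le_normalizer_pCoreOf q N huN) a).mp ha
    have h1 := hcv a (pCoreOf_le_xOf hqp ha)
    have h2 := hcv _ (pCoreOf_le_xOf hqp ha₂)
    have h3 : v⁻¹ * a = a * v⁻¹ := by
      calc v⁻¹ * a = v⁻¹ * (a * v) * v⁻¹ := by group
        _ = v⁻¹ * (v * a) * v⁻¹ := by rw [h1]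
        _ = a * v⁻¹ := by group
    calc t * a = u⁻¹ * v * u * (v⁻¹ * a) := by rw [ht]; group
      _ = u⁻¹ * v * u * (a * v⁻¹) := by rw [h3]
      _ = u⁻¹ * (v * (u * a * u⁻¹)) * u * v⁻¹ := by group
      _ = u⁻¹ * ((u * a * u⁻¹) * v) * u * v⁻¹ := by rw [h2]
      _ = a * t := by rw [ht]; group
  have htF : t ∈ fittingOf N := by
    apply mem_fittingOf_of_centralizes hs htN
    intro y hy
    obtain ⟨a, ha, b, hb, hdec⟩ := fitting_decomp q N hy
    calc t * y = t * (a * b) := by rw [hdec]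
      _ = (t * a) * b := by group
      _ = (a * t) * b := by rw [hta a ha]
      _ = a * (t * b) := by group
      _ = a * (b * t) := by rw [htb b hb]
      _ = y * t := by rw [hdec]; group
  have htq : t ∈ pCoreOf q N := t_core hS hu hup htF
  have ht' : v⁻¹ * t * v⁻¹⁻¹ = v⁻¹ * (u⁻¹ * v * u⁻¹⁻¹) := by
    rw [ht]; group
  have ht'F : v⁻¹ * (u⁻¹ * v * u⁻¹⁻¹) ∈ fittingOf N := by
    rw [← ht']
    exact (Subgroup.mem_normalizer_iff.mp (le_normalizer_fittingOf N (inv_mem hvN)) t).mp htF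
  have ht'p : v⁻¹ * (u⁻¹ * v * u⁻¹⁻¹) ∈ pCoreOf p N := t_core hS hv hvp ht'F
  have ht'q : v⁻¹ * (u⁻¹ * v * u⁻¹⁻¹) ∈ pCoreOf q N := by
    rw [← ht']
    exact (Subgroup.mem_normalizer_iff.mp (le_normalizer_pCoreOf q N (inv_mem hvN)) t).mp htq
  obtain ⟨n₁, hn₁⟩ := pelt_of_mem (isPGroup_pCoreOf p N) ht'p
  obtain ⟨n₂, hn₂⟩ := pelt_of_mem (isPGroup_pCoreOf q N) ht'q
  have h1 : v⁻¹ * (u⁻¹ * v * u⁻¹⁻¹) = 1 :=
    Cfsg.Agent.Lib.PResid.eq_one_of_pow_eq_one_of_coprime hn₁ hn₂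
      (Nat.Coprime.pow_left _ ((Nat.coprime_primes (Fact.out : q.Prime) (Fact.out : p.Prime)).mpr hqp))
  have h2 : v⁻¹ * u⁻¹ * v * u = 1 := by
    rw [← h1]; group
  calc u * v = (u * v) * (v⁻¹ * u⁻¹ * v * u) := by rw [h2, mul_one]
    _ = v * u := by group

/-- **The solvable case**. -/
theorem solvable_case (hS : Star k G)
    (hs : Group.IsSolvable ↥((⊤ : Subgroup G).lowerCentralSeries k)) :
    Group.IsNilpotent ↥((⊤ : Subgroup G).lowerCentralSeries k) := by
  apply isNilpotent_of_commute_prime_power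
  intro r p hr hp hrp u v hu hv
  haveI : Fact r.Prime := ⟨hr⟩
  haveI : Fact p.Prime := ⟨hp⟩
  apply Subtype.ext
  have hu' : ∃ n : ℕ, (u : G) ^ r ^ n = 1 := by
    obtain ⟨n, hn⟩ := hu
    exact ⟨n, by simpa using congrArg Subtype.val hn⟩
  have hv' : ∃ n : ℕ, (v : G) ^ p ^ n = 1 := by
    obtain ⟨n, hn⟩ := hv
    exact ⟨n, by simpa using congrArg Subtype.val hn⟩
  exact commute_primes hS hs hrp u.2 v.2 hu' hv'

end Cfsg.Agent.Lib.BWNil6
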