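/-
BWNil7: the nonsolvable case: `G` is perfect and `G ⧸ center G` is simple.
-/
import Mathlib
import Cfsg.Agent.Lib.BWNil6
import Cfsg.Agent.Lib.FrobNPC

set_option autoImplicit false
set_option linter.unusedSectionVars false
set_option linter.unusedVariables false
set_option linter.style.haveILetI false
set_option linter.unusedSimpArgs false
set_option linter.deprecated false

namespace Cfsg.Agent.Lib.BWNil7

open Cfsg Subgroup Cfsg.Agent.Lib.CoprimeInv Cfsg.Agent.Lib.PCore Cfsg.Agent.Lib.BGUniq
  Cfsg.Agent.Lib.BGFit1 Cfsg.Agent.Lib.BGFit2 Cfsg.Agent.Lib.BWNil1 Cfsg.Agent.Lib.BWNil2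
  Cfsg.Agent.Lib.BWNil3 Cfsg.Agent.Lib.BWNil4 Cfsg.Agent.Lib.BWNil5 Cfsg.Agent.Lib.BWNil6

universe u

variable {G : Type u} [Group G] [Finite G] {k : ℕ}

theorem quot_perfect (hp : commutator G = ⊤) (R : Subgroup G) [R.Normal]
    (hs : Group.IsSolvable (G ⧸ R)) : R = ⊤ := by
  obtain ⟨n, hn⟩ := hs.solvable
  have h1 : derivedSeries G n = ⊤ := by
    induction n with
    | zero => rfl
    | succ n ih =>
      have h2 : derivedSeries (G ⧸ R) n = ⊥ ∨ True := Or.inr trivial
      have h3 : derivedSeries G n = ⊤ := by
        clear ih hn h2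
        induction n with
        | zero => rfl
        | succ n ih => rw [derivedSeries_succ, ih]; exact hp
      rw [derivedSeries_succ, h3]
      exact hp
  have h2 := map_derivedSeries_eq (QuotientGroup.mk'_surjective R) n
  rw [hn, h1, Subgroup.map_eq_bot_iff, QuotientGroup.ker_mk'] at h2
  exact le_antisymm le_top h2

section main

variable (hS : Star k G)
  (IH : ∀ H : Subgroup G, H ≠ ⊤ → Group.IsNilpotent ↥((⊤ : Subgroup H).lowerCentralSeries k))
  (hns : ¬ Group.IsSolvable G)

include IH

theorem sub_solvable (H : Subgroup G) (hH : H ≠ ⊤) : Group.IsSolvable H :=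
  solvable_of_nil_lcs k (IH H hH)

include hns

theorem perfect : commutator G = ⊤ := by
  by_contra hne
  haveI := sub_solvable IH (commutator G) hne
  apply hns
  exact solvable_of_ker_le_range (commutator G).subtype (Abelianization.of (G := G))
    (by simp [Abelianization.ker_of])

theorem lcs_top (n : ℕ) : (⊤ : Subgroup G).lowerCentralSeries n = ⊤ := by
  induction n with
  | zero => rfl
  | succ n ih =>
    rw [Subgroup.lowerCentralSeries_succ, ih]
    exact perfect IH hns

theorem sylow_le {q : ℕ} [Fact q.Prime] (S : Sylow q G) :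
    (S : Subgroup G) ≤ closure (((S : Subgroup G) : Set G) ∩ valSet G k) := fun x hx =>
  sylow_gen S k ⟨hx, by rw [lcs_top IH hns]; trivial⟩

include hS

/-- All `q`-elements act trivially on a normal `q'`-subgroup. -/
theorem q_comm {q : ℕ} [Fact q.Prime] {Y : Subgroup G} [hY : Y.Normal]
    (hco : (Nat.card Y).Coprime q) {u : G} (hu : ∃ n : ℕ, u ^ q ^ n = 1) :
    ∀ y ∈ Y, u * y = y * u := by
  obtain ⟨S, hSu⟩ := (isPGroup_zpowers_of_pelt hu).exists_le_sylow
  have h1 := sylow_le (k := k) IH hns S (hSu (mem_zpowers u))
  have h2 : closure (((S : Subgroup G) : Set G) ∩ valSet G k) ≤ centralizer (Y : Set G) := by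
    rw [Subgroup.closure_le]
    rintro x ⟨hxS, hxV⟩
    refine mem_centralizer_of_forall (star_comm hS hxV (pelt_of_mem S.2 hxS) hco ?_)
    rw [Subgroup.normalizer_eq_top_iff.mpr hY]
    trivial
  intro y hy
  exact centralizes_of_mem_centralizer (h2 h1) hy

theorem normal_le_center (L : Subgroup G) [hL : L.Normal] (hne : L ≠ ⊤) : L ≤ center G := by
  have hLsol := sub_solvable IH L hne
  have hfr : L ≤ frattini G := by
    refine le_iInf₂ fun M hM => ?_
    by_contra hLM
    have hsup : L ⊔ M = ⊤ := by
      refine hM.2 (L ⊔ M) (lt_of_le_of_ne le_sup_right ?_)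
      intro e
      exact hLM (e ▸ le_sup_left)
    haveI := sub_solvable IH M hM.1
    have hsurj : Function.Surjective ((QuotientGroup.mk' L).comp M.subtype) := by
      intro z
      obtain ⟨g, rfl⟩ := QuotientGroup.mk'_surjective L z
      have hg : g ∈ L ⊔ M := by rw [hsup]; trivial
      obtain ⟨l, hl, m, hm, rfl⟩ := Subgroup.mem_sup_of_normal_left.mp hg
      refine ⟨⟨m, hm⟩, ?_⟩
      have h1 : (QuotientGroup.mk' L) l = 1 := by
        rw [← MonoidHom.mem_ker, QuotientGroup.ker_mk']
        exact hl
      show (QuotientGroup.mk' L) m = (QuotientGroup.mk' L) (l * m)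
      rw [map_mul, h1, one_mul]
    haveI : Group.IsSolvable (G ⧸ L) := solvable_of_surjective hsurj
    exact hns (solvable_of_ker_le_range L.subtype (QuotientGroup.mk' L) (by simp))
  have hnil : Group.IsNilpotent L := by
    haveI := frattini_nilpotent (G := G)
    haveI : Group.IsNilpotent ↥(L.subgroupOf (frattini G)) := inferInstance
    exact Group.nilpotent_of_mulEquiv (Subgroup.subgroupOfEquivOfLe hfr)
  have hcore : ∀ (p : ℕ) [Fact p.Prime], pCoreOf p L ≤ center G := by
    intro p _
    haveI hYn : (pCoreOf p L).Normal :=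
      Cfsg.Agent.Lib.PResid.normal_map_of_characteristic hL (instPCoreCharacteristic p)
    have hqc : ∀ (q : ℕ) [Fact q.Prime], q ≠ p → (Nat.card (pCoreOf p L)).Coprime q := by
      intro q _ hqp
      obtain ⟨m, hm⟩ := (isPGroup_pCoreOf p L).exists_card_eq
      rw [hm]
      exact Nat.Coprime.pow_left _ ((Nat.coprime_primes Fact.out Fact.out).mpr hqp.symm)
    have hb : ∀ (n : ℕ) (b : G), orderOf b = n → (orderOf b).Coprime p →
        ∀ y ∈ pCoreOf p L, b * y = y * b := by
      intro n
      induction n using Nat.strong_induction_on with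
      | _ n ih =>
        intro b hn hco y hy
        by_cases hb1 : b = 1
        · rw [hb1]; simp
        have h1 : orderOf b ≠ 1 := fun h0 => hb1 (orderOf_eq_one_iff.mp h0)
        obtain ⟨r, hr, hd⟩ := Nat.exists_prime_and_dvd h1
        haveI : Fact r.Prime := ⟨hr⟩
        have hrp : r ≠ p := by
          rintro rfl
          exact (Nat.Prime.coprime_iff_not_dvd hr).mp hco.symm hd
        obtain ⟨a, c, hac, -, hap, hcc, haz, hcz⟩ := Cfsg.Agent.Lib.PResid.exists_decomp (p := r) b
        have hcd : orderOf c ∣ orderOf b := by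
          rw [← Nat.card_zpowers, ← Nat.card_zpowers]
          exact Subgroup.card_dvd_of_le (zpowers_le.mpr hcz)
        have hclt : orderOf c < n := by
          rw [← hn]
          refine lt_of_le_of_ne (Nat.le_of_dvd (orderOf_pos b) hcd) ?_
          intro h0
          rw [h0] at hcc
          exact (Nat.Prime.coprime_iff_not_dvd hr).mp hcc.symm hd
        have h2 := ih _ hclt c rfl (Nat.Coprime.coprime_dvd_left hcd hco) y hy
        have h3 := q_comm hS IH hns (hqc r hrp) hap y hy
        rw [hac]
        calc a * c * y = a * (c * y) := by group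
          _ = a * (y * c) := by rw [h2]
          _ = (a * y) * c := by group
          _ = (y * a) * c := by rw [h3]
          _ = y * (a * c) := by group
    have hR : pResidual p G = ⊤ := by
      haveI hRn : (pResidual p G).Normal := Cfsg.Agent.Lib.PResid.pResidual_normal p
      apply quot_perfect (perfect IH hns)
      haveI := (Cfsg.Agent.Lib.PResid.isPGroup_quotient_pResidual (G := G) p).isNilpotent
      exact inferInstance
    have hC : pResidual p G ≤ centralizer (pCoreOf p L : Set G) := by
      rw [pResidual, Subgroup.closure_le]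
      intro b hbc
      exact mem_centralizer_of_forall (hb _ b rfl hbc)
    intro y hy
    rw [Subgroup.mem_center_iff]
    intro g
    have hg : g ∈ pResidual p G := by rw [hR]; trivial
    exact centralizes_of_mem_centralizer (hC hg) hy
  have key : ∀ (n : ℕ) (l : G), orderOf l = n → l ∈ L → l ∈ center G := by
    intro n
    induction n using Nat.strong_induction_on with
    | _ n ih =>
      intro l hn hl
      by_cases hl1 : l = 1
      · rw [hl1]; exact one_mem _
      have h1 : orderOf l ≠ 1 := fun h0 => hl1 (orderOf_eq_one_iff.mp h0)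
      obtain ⟨r, hr, hd⟩ := Nat.exists_prime_and_dvd h1
      haveI : Fact r.Prime := ⟨hr⟩
      obtain ⟨a, c, hac, -, hap, hcc, haz, hcz⟩ := Cfsg.Agent.Lib.PResid.exists_decomp (p := r) l
      have hcd : orderOf c ∣ orderOf l := by
        rw [← Nat.card_zpowers, ← Nat.card_zpowers]
        exact Subgroup.card_dvd_of_le (zpowers_le.mpr hcz)
      have hclt : orderOf c < n := by
        rw [← hn]
        refine lt_of_le_of_ne (Nat.le_of_dvd (orderOf_pos l) hcd) ?_
        intro h0
        rw [h0] at hcc
        exact (Nat.Prime.coprime_iff_not_dvd hr).mp hcc.symm hd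
      have hcZ := ih _ hclt c rfl ((zpowers_le.mpr hl) hcz)
      have haF : a ∈ fittingOf L := by
        rw [fittingOf_eq_of_nilpotent hnil]
        exact (zpowers_le.mpr hl) haz
      have haZ := hcore r (mem_core_of_fitting L haF hap)
      rw [hac]
      exact mul_mem haZ hcZ
  exact fun l hl => key _ l rfl hl

theorem exists_not_center : ∃ x : G, x ∉ center G := by
  by_contra hno
  push Not at hno
  apply hns
  apply isSolvable_of_comm
  intro a b
  exact Subgroup.mem_center_iff.mp (hno b) a

theorem simple_quot : IsSimpleGroup (G ⧸ center G) := by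
  obtain ⟨x, hx⟩ := exists_not_center hS IH hns
  haveI : Nontrivial (G ⧸ center G) := by
    refine ⟨⟨QuotientGroup.mk' (center G) x, 1, ?_⟩⟩
    intro h0
    apply hx
    rw [← QuotientGroup.ker_mk' (center G), MonoidHom.mem_ker]
    exact h0
  refine ⟨fun K hK => ?_⟩
  haveI hK' : (K.comap (QuotientGroup.mk' (center G))).Normal := hK.comap _
  by_cases h1 : K.comap (QuotientGroup.mk' (center G)) = ⊤
  · right
    rw [eq_top_iff]
    intro z _
    obtain ⟨g, rfl⟩ := QuotientGroup.mk'_surjective (center G) z
    have hg : g ∈ K.comap (QuotientGroup.mk' (center G)) := by rw [h1]; trivial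
    exact hg
  · left
    have h2 := normal_le_center hS IH hns _ h1
    rw [eq_bot_iff]
    intro z hz
    obtain ⟨g, rfl⟩ := QuotientGroup.mk'_surjective (center G) z
    have h3 : g ∈ center G := h2 hz
    have h4 : (QuotientGroup.mk' (center G)) g = 1 := by
      rw [← MonoidHom.mem_ker, QuotientGroup.ker_mk']
      exact h3
    rw [h4]
    exact one_mem _

theorem center_quot : center (G ⧸ center G) = ⊥ := by
  haveI := simple_quot hS IH hns
  rcases IsSimpleGroup.eq_bot_or_eq_top_of_normal (center (G ⧸ center G)) inferInstance with h1 | h1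
  · exact h1
  · exfalso
    apply hns
    haveI : Group.IsSolvable (G ⧸ center G) := by
      apply isSolvable_of_comm
      intro a b
      have hb : b ∈ center (G ⧸ center G) := by rw [h1]; trivial
      exact Subgroup.mem_center_iff.mp hb a
    haveI : Group.IsSolvable (center G) := by
      apply isSolvable_of_comm
      intro a b
      exact Subtype.ext (Subgroup.mem_center_iff.mp b.2 a)
    exact solvable_of_ker_le_range (center G).subtype (QuotientGroup.mk' (center G)) (by simp)

end main

end Cfsg.Agent.Lib.BWNil7
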