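/-
BWNil8: the nonsolvable case is contradictory; the main theorem.
-/
import Mathlib
import Cfsg.Agent.Lib.BWNil7

set_option autoImplicit false
set_option linter.unusedSectionVars false
set_option linter.unusedVariables false
set_option linter.style.haveILetI false
set_option linter.unusedSimpArgs false
set_option linter.deprecated false

namespace Cfsg.Agent.Lib.BWNil8

open Cfsg Subgroup Cfsg.Agent.Lib.CoprimeInv Cfsg.Agent.Lib.PCore Cfsg.Agent.Lib.BGUniq
  Cfsg.Agent.Lib.BGFit1 Cfsg.Agent.Lib.BGFit2 Cfsg.Agent.Lib.BWNil1 Cfsg.Agent.Lib.BWNil2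
  Cfsg.Agent.Lib.BWNil3 Cfsg.Agent.Lib.BWNil4 Cfsg.Agent.Lib.BWNil5 Cfsg.Agent.Lib.BWNil6
  Cfsg.Agent.Lib.BWNil7

universe u

variable {G : Type u} [Group G] [Finite G] {k : ℕ}

/-- The projection modulo the centre. -/
abbrev pz (G : Type u) [Group G] : G →* G ⧸ center G := QuotientGroup.mk' (center G)

/-- Images of the values which are `q`-elements. -/
def Δ₀ (k : ℕ) (G : Type u) [Group G] (q : ℕ) : Set (G ⧸ center G) :=
  {z | q.Prime ∧ ∃ x ∈ valSet G k, (∃ n : ℕ, x ^ q ^ n = 1) ∧ pz G x = z}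

theorem pz_eq_one_iff {x : G} : pz G x = 1 ↔ x ∈ center G := by
  rw [← MonoidHom.mem_ker, QuotientGroup.ker_mk']

theorem pz_surj : Function.Surjective (pz G) := QuotientGroup.mk'_surjective _

theorem W_nil {q : ℕ} [Fact q.Prime] {U : Subgroup (G ⧸ center G)} (hU : IsPGroup q U) :
    Group.IsNilpotent ↥(U.comap (pz G)) := by
  haveI := hU.isNilpotent
  refine Subgroup.isNilpotent_of_ker_le_center ((pz G).subgroupComap U) ?_
  intro w hw
  rw [Subgroup.mem_center_iff]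
  intro g
  apply Subtype.ext
  have h1 : pz G (w : G) = 1 := by
    have h2 : ((pz G).subgroupComap U) w = 1 := hw
    exact congrArg Subtype.val h2
  exact Subgroup.mem_center_iff.mp (pz_eq_one_iff.mp h1) g

theorem mem_core_W {q : ℕ} [Fact q.Prime] {U : Subgroup (G ⧸ center G)} (hU : IsPGroup q U) {a : G}
    (ha : pz G a ∈ U) (hp : ∃ n : ℕ, a ^ q ^ n = 1) : a ∈ pCoreOf q (U.comap (pz G)) := by
  apply mem_core_of_fitting _ _ hp
  rw [fittingOf_eq_of_nilpotent (W_nil hU)]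
  exact ha

theorem exists_lift {q : ℕ} [Fact q.Prime] {U : Subgroup (G ⧸ center G)} (hU : IsPGroup q U)
    {z : G ⧸ center G} (hz : z ∈ U) : ∃ a ∈ pCoreOf q (U.comap (pz G)), pz G a = z := by
  obtain ⟨u, rfl⟩ := pz_surj z
  obtain ⟨a, b, hab, -, hap, hbc, haz, hbz⟩ := Cfsg.Agent.Lib.PResid.exists_decomp (p := q) u
  have huW : u ∈ U.comap (pz G) := hz
  have hbW : b ∈ U.comap (pz G) := (zpowers_le.mpr huW) hbz
  have haW : a ∈ U.comap (pz G) := (zpowers_le.mpr huW) haz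
  obtain ⟨n, hn⟩ := Cfsg.Agent.Lib.PResid.exists_pow_eq_one_of_isPGroup hU hbW
  have hb2 : (pz G b) ^ orderOf b = 1 := by
    rw [← map_pow, pow_orderOf_eq_one, map_one]
  have hb1 : pz G b = 1 := Cfsg.Agent.Lib.PResid.eq_one_of_pow_eq_one_of_coprime hn hb2 hbc
  have e : pz G u = pz G a := by
    rw [hab, map_mul, hb1, mul_one]
  exact ⟨a, mem_core_W hU haW hap, e.symm⟩

section fields

variable (hS : Star k G)
  (IH : ∀ H : Subgroup G, H ≠ ⊤ → Group.IsNilpotent ↥((⊤ : Subgroup H).lowerCentralSeries k))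
  (hns : ¬ Group.IsSolvable G)

theorem conj_field (q : ℕ) (z g : G ⧸ center G) (hz : z ∈ Δ₀ k G q) : g * z * g⁻¹ ∈ Δ₀ k G q := by
  obtain ⟨hq, x, hxV, ⟨n, hn⟩, rfl⟩ := hz
  obtain ⟨g₀, rfl⟩ := pz_surj g
  refine ⟨hq, g₀ * x * g₀⁻¹, valSet_conj hxV g₀, ⟨n, by rw [conj_pow, hn]; group⟩, ?_⟩
  simp

theorem pelt_field (q : ℕ) (z : G ⧸ center G) (hz : z ∈ Δ₀ k G q) : ∃ n : ℕ, z ^ q ^ n = 1 := by
  obtain ⟨hq, x, hxV, ⟨n, hn⟩, rfl⟩ := hz
  exact ⟨n, by rw [← map_pow, hn, map_one]⟩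

include IH hns in
theorem gen_field (q : ℕ) [Fact q.Prime] (P : Sylow q (G ⧸ center G)) :
    (P : Subgroup (G ⧸ center G)) ≤
      closure (((P : Subgroup (G ⧸ center G)) : Set (G ⧸ center G)) ∩ Δ₀ k G q) := by
  obtain ⟨P₁, hP₁⟩ := (isPGroup_pCoreOf q ((P : Subgroup (G ⧸ center G)).comap (pz G))).exists_le_sylow
  have hmap : (P₁ : Subgroup G).map (pz G) = P := by
    have hpg : IsPGroup q ((P₁ : Subgroup G).map (pz G)) := P₁.2.map _
    have hle : (P : Subgroup (G ⧸ center G)) ≤ (P₁ : Subgroup G).map (pz G) := by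
      intro z hz
      obtain ⟨a, ha, rfl⟩ := exists_lift P.2 hz
      exact ⟨a, hP₁ ha, rfl⟩
    exact P.3 hpg hle
  intro z hz
  obtain ⟨a, ha, rfl⟩ := exists_lift P.2 hz
  have h1 := sylow_le (k := k) IH hns P₁ (hP₁ ha)
  have h2 : closure (((P₁ : Subgroup G) : Set G) ∩ valSet G k) ≤
      (closure (((P : Subgroup (G ⧸ center G)) : Set (G ⧸ center G)) ∩ Δ₀ k G q)).comap (pz G) := by
    rw [Subgroup.closure_le]
    rintro x ⟨hxP₁, hxV⟩
    apply Subgroup.subset_closure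
    refine ⟨?_, Fact.out, x, hxV, pelt_of_mem P₁.2 hxP₁, rfl⟩
    show pz G x ∈ (P : Subgroup (G ⧸ center G))
    rw [← hmap]
    exact mem_map_of_mem _ hxP₁
  exact h2 h1

include hS in
theorem inv_field (q : ℕ) (z : G ⧸ center G) (U : Subgroup (G ⧸ center G)) (hz : z ∈ Δ₀ k G q)
    (hU : (Nat.card U).Coprime q) (hN : z ∈ normalizer (U : Set (G ⧸ center G))) :
    ∀ u ∈ U, z * u = u * z := by
  obtain ⟨hq, x, hxV, hxp, rfl⟩ := hz
  haveI : Fact q.Prime := ⟨hq⟩
  set W := U.comap (pz G) with hW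
  have hqel : ∀ a ∈ W, (∃ n : ℕ, a ^ q ^ n = 1) → a ∈ center G := by
    rintro a ha ⟨n, hn⟩
    rw [← pz_eq_one_iff]
    apply Cfsg.Agent.Lib.PResid.eq_one_of_pow_eq_one_of_coprime (p := q) (n := n) (k := Nat.card U)
    · rw [← map_pow, hn, map_one]
    · exact pow_card_of_mem ha
    · exact hU
  have hF : Cfsg.Agent.Lib.FrobNPC.FrobHyp q W := by
    intro Q hQ g hg hco
    rw [Subgroup.mem_centralizer_iff]
    intro y hy
    apply Subtype.ext
    obtain ⟨n, hn⟩ := Cfsg.Agent.Lib.PResid.exists_pow_eq_one_of_isPGroup hQ hy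
    have h1 : (y : G) ∈ center G := by
      apply hqel _ y.2
      exact ⟨n, by simpa using congrArg Subtype.val hn⟩
    exact (Subgroup.mem_center_iff.mp h1 (g : G)).symm
  obtain ⟨K, hKn, hKc, m, hm⟩ := Cfsg.Agent.Lib.FrobNPC.exists_normal_complement hF
  haveI := hKn
  set K₁ := K.map W.subtype with hK₁
  have hK₁W : K₁ ≤ W := Subgroup.map_subtype_le _
  have hK₁c : (Nat.card K₁).Coprime q := by
    rw [hK₁, Subgroup.card_map_of_injective W.subtype_injective]
    exact hKc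
  have hbK : ∀ b ∈ W, (orderOf b).Coprime q → b ∈ K₁ := by
    intro b hb hbc
    let f := QuotientGroup.mk' K
    have h1 : (f ⟨b, hb⟩) ^ q ^ m = 1 := by
      rw [← hm]
      exact pow_card_eq_one'
    have h2 : (f ⟨b, hb⟩) ^ orderOf b = 1 := by
      rw [← map_pow]
      have : (⟨b, hb⟩ : W) ^ orderOf b = 1 := by
        apply Subtype.ext
        simp [pow_orderOf_eq_one]
      rw [this, map_one]
    have h3 : f ⟨b, hb⟩ = 1 := Cfsg.Agent.Lib.PResid.eq_one_of_pow_eq_one_of_coprime h1 h2 hbc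
    have h4 : (⟨b, hb⟩ : W) ∈ K := by
      rw [← QuotientGroup.ker_mk' K, MonoidHom.mem_ker]
      exact h3
    exact ⟨_, h4, rfl⟩
  have hxW : x ∈ normalizer (W : Set G) := by
    rw [Subgroup.mem_normalizer_iff]
    intro y
    have h1 : pz G (x * y * x⁻¹) = pz G x * pz G y * (pz G x)⁻¹ := by simp
    show pz G y ∈ U ↔ pz G (x * y * x⁻¹) ∈ U
    rw [h1]
    exact Subgroup.mem_normalizer_iff.mp hN _
  have hxK : x ∈ normalizer (K₁ : Set G) := by
    rw [mem_normalizer_iff_cj]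
    refine Subgroup.eq_of_le_of_card_ge ?_ (by rw [card_cj])
    rintro _ ⟨y, hy, rfl⟩
    show x * y * x⁻¹ ∈ K₁
    apply hbK
    · exact (Subgroup.mem_normalizer_iff.mp hxW y).mp (hK₁W hy)
    · have h3 : orderOf (x * y * x⁻¹) = orderOf y := orderOf_injective
        (MulAut.conj x).toMonoidHom (MulAut.conj x).injective y
      rw [h3]
      exact Nat.Coprime.coprime_dvd_left (Subgroup.orderOf_dvd_natCard K₁ hy) hK₁c
  have hcomm := star_comm hS hxV hxp hK₁c hxK
  intro u hu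
  obtain ⟨u₀, rfl⟩ := pz_surj u
  have hu₀W : u₀ ∈ W := hu
  obtain ⟨a, b, hab, -, hap, hbc, haz, hbz⟩ := Cfsg.Agent.Lib.PResid.exists_decomp (p := q) u₀
  have haZ := hqel a ((zpowers_le.mpr hu₀W) haz) hap
  have hbK₁ := hbK b ((zpowers_le.mpr hu₀W) hbz) hbc
  have e : x * u₀ = u₀ * x := by
    have h1 := hcomm b hbK₁
    have h2 : a * x = x * a := Subgroup.mem_center_iff.mp haZ x |>.symm ▸ rfl
    rw [hab]
    calc x * (a * b) = (x * a) * b := by group
      _ = (a * x) * b := by rw [h2]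
      _ = a * (x * b) := by group
      _ = a * (b * x) := by rw [h1]
      _ = a * b * x := by group
  rw [← map_mul, ← map_mul, e]

theorem fpf_field (q : ℕ) (c₁ : G ⧸ center G) (U : Subgroup (G ⧸ center G)) (hq : q.Prime)
    (hco : (orderOf c₁).Coprime q) (hU : IsPGroup q U)
    (hN : c₁ ∈ normalizer (U : Set (G ⧸ center G))) (hfix : ∀ u ∈ U, c₁ * u = u * c₁ → u = 1) :
    ∀ u ∈ U, u ∈ Δ₀ k G q := by
  haveI : Fact q.Prime := ⟨hq⟩
  obtain ⟨c₀, rfl⟩ := pz_surj c₁
  obtain ⟨a, c, hac, -, hap, hcc, haz, hcz⟩ := Cfsg.Agent.Lib.PResid.exists_decomp (p := q) c₀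
  have ha1 : pz G a = 1 := by
    obtain ⟨n, hn⟩ := hap
    have h1 : (pz G a) ^ q ^ n = 1 := by rw [← map_pow, hn, map_one]
    have h2 : (pz G a) ^ orderOf (pz G c₀) = 1 := by
      obtain ⟨j, rfl⟩ := haz
      show (pz G (c₀ ^ j)) ^ orderOf (pz G c₀) = 1
      rw [map_zpow, ← zpow_natCast, ← zpow_mul, mul_comm, zpow_mul, zpow_natCast,
        pow_orderOf_eq_one, one_zpow]
    exact Cfsg.Agent.Lib.PResid.eq_one_of_pow_eq_one_of_coprime h1 h2 hco
  have hc₀ : pz G c₀ = pz G c := by rw [hac, map_mul, ha1, one_mul]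
  rw [hc₀] at hN hfix
  set W := U.comap (pz G) with hW
  set O := pCoreOf q W with hO
  have hcW : c ∈ normalizer (W : Set G) := by
    rw [Subgroup.mem_normalizer_iff]
    intro y
    have h1 : pz G (c * y * c⁻¹) = pz G c * pz G y * (pz G c)⁻¹ := by simp
    show pz G y ∈ U ↔ pz G (c * y * c⁻¹) ∈ U
    rw [h1]
    exact Subgroup.mem_normalizer_iff.mp hN _
  have hcO : c ∈ normalizer (O : Set G) :=
    Cfsg.Agent.Lib.PResid.normalizer_le_normalizer_of_characteristic
      (instPCoreCharacteristic q) hcW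
  let φ : G → G := fun y => y * c * y⁻¹ * c⁻¹
  have hφO : ∀ y ∈ O, φ y ∈ O := by
    intro y hy
    have h1 : c * y⁻¹ * c⁻¹ ∈ O := (Subgroup.mem_normalizer_iff.mp hcO _).mp (inv_mem hy)
    have e : φ y = y * (c * y⁻¹ * c⁻¹) := by
      show y * c * y⁻¹ * c⁻¹ = _
      group
    rw [e]
    exact mul_mem hy h1
  let ψ₀ : G ⧸ center G → G ⧸ center G := fun z => z * pz G c * z⁻¹ * (pz G c)⁻¹
  have hψU : ∀ z ∈ U, ψ₀ z ∈ U := by
    intro z hz
    have h1 : pz G c * z⁻¹ * (pz G c)⁻¹ ∈ U := (Subgroup.mem_normalizer_iff.mp hN _).mp (inv_mem hz)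
    have e : ψ₀ z = z * (pz G c * z⁻¹ * (pz G c)⁻¹) := by
      show z * pz G c * z⁻¹ * (pz G c)⁻¹ = _
      group
    rw [e]
    exact mul_mem hz h1
  let ψ : U → U := fun z => ⟨ψ₀ z, hψU z z.2⟩
  have hinj : Function.Injective ψ := by
    intro z z' h0
    have h1 : ψ₀ z = ψ₀ z' := congrArg Subtype.val h0
    have h2 : (z : G ⧸ center G) * pz G c * (z : G ⧸ center G)⁻¹ =
        (z' : G ⧸ center G) * pz G c * (z' : G ⧸ center G)⁻¹ := by
      have h3 : (z : G ⧸ center G) * pz G c * (z : G ⧸ center G)⁻¹ * (pz G c)⁻¹ =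
          (z' : G ⧸ center G) * pz G c * (z' : G ⧸ center G)⁻¹ * (pz G c)⁻¹ := h1
      exact mul_right_cancel h3
    have h3 : (z' : G ⧸ center G)⁻¹ * z ∈ U := mul_mem (inv_mem z'.2) z.2
    have h4 := hfix _ h3 (by
      have h5 : (z : G ⧸ center G) * pz G c = (z' : G ⧸ center G) * pz G c * (z' : G ⧸ center G)⁻¹ * z := by
        rw [← h2]; group
      calc pz G c * ((z' : G ⧸ center G)⁻¹ * z)
          = (z' : G ⧸ center G)⁻¹ * ((z' : G ⧸ center G) * pz G c * (z' : G ⧸ center G)⁻¹ * z) := by group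
        _ = (z' : G ⧸ center G)⁻¹ * ((z : G ⧸ center G) * pz G c) := by rw [← h5]
        _ = (z' : G ⧸ center G)⁻¹ * z * pz G c := by group)
    apply Subtype.ext
    have h5 : (z' : G ⧸ center G) * ((z' : G ⧸ center G)⁻¹ * z) = z' * 1 := by rw [h4]
    simpa using h5
  have hsurj : Function.Surjective ψ := Finite.injective_iff_surjective.mp hinj
  have hiter : Function.Surjective ψ^[k] := hsurj.iterate k
  have hφV : ∀ (m : ℕ) (y : G), φ^[m] y ∈ valSet G m := by
    intro m y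
    induction m with
    | zero => trivial
    | succ m ih =>
      rw [Function.iterate_succ_apply']
      exact ⟨_, ih, c, rfl⟩
  have hφiO : ∀ (m : ℕ) (y : G), y ∈ O → φ^[m] y ∈ O := by
    intro m y hy
    induction m with
    | zero => exact hy
    | succ m ih =>
      rw [Function.iterate_succ_apply']
      exact hφO _ ih
  have hφmap : ∀ (m : ℕ) (y : G) (v : U), pz G y = v → pz G (φ^[m] y) = (ψ^[m] v : U) := by
    intro m y v hyv
    induction m with
    | zero => exact hyv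
    | succ m ih =>
      rw [Function.iterate_succ_apply', Function.iterate_succ_apply']
      show pz G (φ^[m] y * c * (φ^[m] y)⁻¹ * c⁻¹) =
        ((ψ^[m] v : U) : G ⧸ center G) * pz G c * ((ψ^[m] v : U) : G ⧸ center G)⁻¹ * (pz G c)⁻¹
      rw [← ih]
      simp
  intro u hu
  obtain ⟨v, hv⟩ := hiter ⟨u, hu⟩
  obtain ⟨y, hyO, hy⟩ := exists_lift hU v.2
  refine ⟨hq, φ^[k] y, hφV k y, pelt_of_mem (isPGroup_pCoreOf q W) (hφiO k y hyO), ?_⟩
  rw [hφmap k y v hy, hv]

theorem comm_field (q : ℕ) [Fact q.Prime] (P : Sylow q (G ⧸ center G)) (z s : G ⧸ center G)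
    (hz : z ∈ (P : Subgroup (G ⧸ center G))) (hzΔ : z ∈ Δ₀ k G q)
    (hs : s ∈ (P : Subgroup (G ⧸ center G))) : z * s * z⁻¹ * s⁻¹ ∈ Δ₀ k G q := by
  obtain ⟨hq, x, hxV, hxp, rfl⟩ := hzΔ
  have hxO := mem_core_W P.2 hz hxp
  obtain ⟨s₀, hsO, rfl⟩ := exists_lift P.2 hs
  have hw : x * s₀ * x⁻¹ * s₀⁻¹ ∈ pCoreOf q ((P : Subgroup (G ⧸ center G)).comap (pz G)) :=
    mul_mem (mul_mem (mul_mem hxO hsO) (inv_mem hxO)) (inv_mem hsO)
  exact ⟨hq, _, comm_mem_valSet hxV s₀, pelt_of_mem (isPGroup_pCoreOf q _) hw, by simp⟩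

include IH in
theorem prop_field (M : Subgroup (G ⧸ center G)) (hM : M ≠ ⊤) :
    Group.IsSolvable M ∧ Group.IsNilpotent (M ⧸ fittingSubgroup M) := by
  have hM₁ : M.comap (pz G) ≠ ⊤ := by
    intro h0
    apply hM
    rw [eq_top_iff]
    intro z _
    obtain ⟨g, rfl⟩ := pz_surj z
    have h1 : g ∈ M.comap (pz G) := by rw [h0]; trivial
    exact h1
  exact lcs_quot ((pz G).subgroupComap M) ((pz G).subgroupComap_surjective_of_surjective M pz_surj) k
    (IH _ hM₁)

include hS IH hns in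
theorem nonsolvable_false : False :=
  false_of_data (Δ := Δ₀ k G)
    { simple := simple_quot hS IH hns
      center := center_quot hS IH hns
      conj := fun q x g hx => conj_field q x g hx
      pelt := pelt_field
      gen := fun q _ P => gen_field IH hns q P
      inv := inv_field hS
      fpf := fpf_field
      comm := fun q _ P x s => comm_field q P x s
      prop := prop_field IH }

end fields

/-- **The main theorem.** -/
theorem nilpotent_of_star (k : ℕ) : ∀ (n : ℕ) (G : Type u) [Group G] [Finite G], Nat.card G = n →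
    Star k G → Group.IsNilpotent ↥((⊤ : Subgroup G).lowerCentralSeries k) := by
  intro n
  induction n using Nat.strong_induction_on with
  | _ n ih =>
    intro G _ _ hn hS
    by_cases hs : Group.IsSolvable G
    · exact solvable_case hS inferInstance
    · exfalso
      apply nonsolvable_false hS ?_ hs
      intro H hH
      have hlt : Nat.card H < n := by
        rw [← hn]
        have h1 := card_lt_of_lt (lt_of_le_of_ne le_top hH)
        rwa [Subgroup.card_top] at h1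
      exact ih _ hlt H rfl (hS.subgroup H)

end Cfsg.Agent.Lib.BWNil8
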