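import Mathlib
import Cfsg.Agent.Lib.TriOut

/-!
# The outer automorphism group of `PΩ⁺₈(q)` for `q` odd
-/

set_option autoImplicit false
set_option linter.unusedSectionVars false
set_option linter.unusedVariables false
set_option linter.unusedSimpArgs false

noncomputable section

namespace Cfsg.Agent.Lib.TriAct

open Module QuadraticMap Cfsg.Agent.Lib.OrthoBasic Cfsg.Agent.Lib.OrthoCount Cfsg.Agent.Lib.OrthoSiegel
  Cfsg.Agent.Lib.OrthoGen Cfsg.Agent.Lib.OrthoOrder Cfsg.Agent.Lib.OrthoFinal Cfsg.Agent.Lib.OrthoSimple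
  Cfsg.Agent.Lib.PgoGroup Cfsg.Agent.Lib.PgoPsi Cfsg.Agent.Lib.GammaCount Cfsg.Agent.Lib.Tri Cfsg.Agent.Lib.AutOrth
  Cfsg.Agent.Lib.AutOrthOut Cfsg.Agent.Lib.OutD4
open Cfsg Matrix

variable {F : Type*} [Field F] [Fintype F]

/-- A diagonal similarity as an element of `CO`. -/
def dC (C : Fin 4 → Fˣ) (μ : Fˣ) : CO (quadFormPlus 4 F) := ⟨dS C μ, μ, dS_spec C μ⟩

lemma psiO_dC (C : Fin 4 → Fˣ) (μ : Fˣ) : psiO _ (dC C μ) = psiG _ (mkG _ (dS_semi C μ)) := psiO_eq _ _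

lemma tau_dC (C : Fin 4 → Fˣ) (μ : Fˣ) :
    tauP F * psiO _ (dC C μ) * (tauP F)⁻¹ = psiO _ (dC (C₁ C μ) (μ₁ C μ)) := by
  rw [psiO_dC, psiO_dC, mul_inv_eq_iff_eq_mul]
  exact tauP_dS C μ

lemma dS_val (C : Fin 4 → Fˣ) (μ : Fˣ) : ((dS C μ : GL (Fin 4 ⊕ Fin 4) F) : Matrix (Fin 4 ⊕ Fin 4) (Fin 4 ⊕ Fin 4) F) = Matrix.diagonal fun i => ((sE C μ i : Fˣ) : F) := rfl

lemma det_dS (C : Fin 4 → Fˣ) (μ : Fˣ) : Matrix.GeneralLinearGroup.det (dS C μ) = μ ^ 4 := by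
  have h : ((dS C μ : GL (Fin 4 ⊕ Fin 4) F) : Matrix (Fin 4 ⊕ Fin 4) (Fin 4 ⊕ Fin 4) F).det = (μ : F) ^ 4 := by
    rw [dS_val, Matrix.det_diagonal, Fintype.prod_sum_type, Fin.prod_univ_four, Fin.prod_univ_four]
    simp only [sE, Sum.elim_inl, Sum.elim_inr, Units.val_mul, Units.val_inv_eq_inv_val, Units.val_pow_eq_pow_val]
    have h0 := (C 0).ne_zero
    have h1 := (C 1).ne_zero
    have h2 := (C 2).ne_zero
    have h3 := (C 3).ne_zero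
    field_simp
  apply Units.ext
  rw [Matrix.GeneralLinearGroup.val_det_apply, h, Units.val_pow_eq_pow_val]

section odd

variable (D₀ : PgoSim.Data (quadFormPlus 4 F) (qPlus 4 F) 4)

lemma multC_dC (C : Fin 4 → Fˣ) (μ : Fˣ) : D₀.multC (dC C μ) = μ := D₀.multC_eq (dS_spec C μ)

lemma delta_dC (C : Fin 4 → Fˣ) (μ : Fˣ) : D₀.delta (dC C μ) = 1 := by
  rw [PgoSim.Data.delta_apply, multC_dC, PgoSim.Data.detC_apply]
  change Matrix.GeneralLinearGroup.det (dS C μ) * _ = 1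
  rw [det_dS, mul_inv_cancel]

lemma Q_oone : qPlus 4 F (oone : Oc F) = 1 := by
  rw [← onrm_eq, onrm_one]

lemma Q_oone_ne : qPlus 4 F (oone : Oc F) ≠ 0 := by
  rw [Q_oone]
  exact one_ne_zero

/-- `κ` is `-1` times the reflection in the unit. -/
lemma kapC_eq : kapC F = D₀.scalC (-1) * PgoSim.Data.isoC (D₀.rA Q_oone_ne) := by
  apply Subtype.ext
  apply Units.ext
  apply Matrix.mulVec_injective
  funext v
  change ((kap F : GL (Fin 4 ⊕ Fin 4) F) : Matrix (Fin 4 ⊕ Fin 4) (Fin 4 ⊕ Fin 4) F) *ᵥ v =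
    ((PgoSim.Data.scalGL (-1) * ((D₀.rA Q_oone_ne : isometryGroup F (quadFormPlus 4 F)) : GL (Fin 4 ⊕ Fin 4) F) : GL (Fin 4 ⊕ Fin 4) F) : Matrix (Fin 4 ⊕ Fin 4) (Fin 4 ⊕ Fin 4) F) *ᵥ v
  rw [kap_mulVec, Units.val_mul, ← Matrix.mulVec_mulVec, PgoSim.Data.scalGL_apply, D₀.rA_apply, reflLin_apply, polar_eq, otr_eq, Q_oone, div_one]
  apply oc_ext <;> simp [ocj, otr, oone]

lemma delta_kap : D₀.delta (kapC F) = -1 := by
  rw [kapC_eq D₀, map_mul, PgoSim.Data.delta_scalC, PgoSim.Data.delta_rA, one_mul]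

/-- The inner-diagonal group. -/
abbrev Gd : Subgroup (MulAut (POmega F (quadFormPlus 4 F))) := D₀.delta.ker.map (psiO _)

/-- The inner-diagonal group modulo inner automorphisms. -/
abbrev DN : Subgroup (Out (POmega F (quadFormPlus 4 F))) := (Gd D₀).map (piN F)

lemma mem_DN {A : CO (quadFormPlus 4 F)} (h : D₀.delta A = 1) : piN F (psiO _ A) ∈ DN D₀ :=
  ⟨_, ⟨A, h, rfl⟩, rfl⟩

lemma exists_of_mem_DN {d : Out (POmega F (quadFormPlus 4 F))} (h : d ∈ DN D₀) :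
    ∃ A : CO (quadFormPlus 4 F), D₀.delta A = 1 ∧ d = piN F (psiO _ A) := by
  obtain ⟨_, ⟨A, hA, rfl⟩, rfl⟩ := h
  exact ⟨A, hA, rfl⟩

lemma hneg₈ (hodd : Odd (Fintype.card F)) : OrthoChar.negEl (qPlus 4 F) ∈ siegelE (qPlus 4 F) := by
  have h := (PgoFamilies.neg_plus (F := F) hodd 1).2 (by
    rintro ⟨h1, -⟩
    exact absurd h1 (by decide))
  exact h

lemma card_DN : Nat.card (DN D₀) = 4 := by
  have h1 := card_map_mk (Inn (POmega F (quadFormPlus 4 F))) (Gd D₀)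
  have h2 := PgoInndiag.Data.relIndex_Gd D₀ (D₀.relIndex_two (hneg₈ D₀.hodd))
  rw [h2] at h1
  exact h1

/-- Different multipliers modulo squares. -/
lemma ne_of_nonsq {A A' : CO (quadFormPlus 4 F)} (h : ¬ IsSquare ((D₀.multC A)⁻¹ * D₀.multC A')) :
    piN F (psiO _ A) ≠ piN F (psiO _ A') := by
  intro he
  have h1 := piN_eq_iff.1 he
  rw [← map_inv, ← map_mul] at h1
  refine PgoInndiag.Data.not_inn_of_nonsq D₀ (A⁻¹ * A') ?_ h1
  rw [map_mul, map_inv]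
  exact h

/-- The first diagonal element. -/
def C₀ (ν : Fˣ) : Fin 4 → Fˣ := ![ν, 1, 1, 1]

/-- The class of a diagonal similarity. -/
abbrev zN (C : Fin 4 → Fˣ) (μ : Fˣ) : Out (POmega F (quadFormPlus 4 F)) := piN F (psiO _ (dC C μ))

lemma T_zN (C : Fin 4 → Fˣ) (μ : Fˣ) : piN F (tauP F) * zN C μ * (piN F (tauP F))⁻¹ = zN (C₁ C μ) (μ₁ C μ) := by
  rw [zN, zN, ← tau_dC, map_mul, map_mul, map_inv]

lemma μ₁_C₀ (ν : Fˣ) : μ₁ (C₀ ν) 1 = ν := by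
  simp [μ₁, C₀]

lemma μ₁_C₁_C₀ (ν : Fˣ) : μ₁ (C₁ (C₀ ν) 1) (μ₁ (C₀ ν) 1) = ν := by
  rw [μ₁_C₀]
  simp [μ₁, C₁, C₀]

/-- `z`. -/
abbrev z₁ (ν : Fˣ) : Out (POmega F (quadFormPlus 4 F)) := zN (C₀ ν) 1

lemma T_z₁ (hν : ¬ IsSquare (D₀.ν)) : piN F (tauP F) * z₁ D₀.ν * (piN F (tauP F))⁻¹ ≠ z₁ D₀.ν := by
  rw [T_zN]
  apply ne_of_nonsq D₀
  rw [multC_dC, multC_dC, μ₁_C₀, inv_mul_eq_div]
  simpa using hν

lemma T_cube : (piN F (tauP F)) ^ 3 = 1 := by rw [← map_pow, tauP_cube, map_one]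

/-- The three non-trivial elements of `DN`. -/
theorem DN_elements {d : Out (POmega F (quadFormPlus 4 F))} (hd : d ∈ DN D₀) :
    d = 1 ∨ d = z₁ D₀.ν ∨ d = piN F (tauP F) * z₁ D₀.ν * (piN F (tauP F))⁻¹ ∨
      d = piN F (tauP F) * (piN F (tauP F) * z₁ D₀.ν * (piN F (tauP F))⁻¹) * (piN F (tauP F))⁻¹ := by
  have hT := T_z₁ D₀ D₀.hν
  obtain ⟨h1, h2, h3, h4, h5, -⟩ := orbit_facts T_cube hT
  have m1 : z₁ D₀.ν ∈ DN D₀ := mem_DN D₀ (delta_dC D₀ _ _)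
  have m2 : piN F (tauP F) * z₁ D₀.ν * (piN F (tauP F))⁻¹ ∈ DN D₀ := by
    rw [T_zN]
    exact mem_DN D₀ (delta_dC D₀ _ _)
  have m3 : piN F (tauP F) * (piN F (tauP F) * z₁ D₀.ν * (piN F (tauP F))⁻¹) * (piN F (tauP F))⁻¹ ∈ DN D₀ := by
    rw [T_zN, T_zN]
    exact mem_DN D₀ (delta_dC D₀ _ _)
  exact eq_of_card_four (DN D₀) (card_DN D₀) m1 m2 m3 h1 h2 h3 hT.symm h4.symm h5.symm hd

/-- `T` normalises `DN`. -/
lemma hTD_odd : ∀ d ∈ DN D₀, piN F (tauP F) * d * (piN F (tauP F))⁻¹ ∈ DN D₀ := by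
  intro d hd
  have hT := T_z₁ D₀ D₀.hν
  obtain ⟨h1, h2, h3, h4, h5, h6⟩ := orbit_facts T_cube hT
  have m1 : z₁ D₀.ν ∈ DN D₀ := mem_DN D₀ (delta_dC D₀ _ _)
  have m2 : piN F (tauP F) * z₁ D₀.ν * (piN F (tauP F))⁻¹ ∈ DN D₀ := by
    rw [T_zN]
    exact mem_DN D₀ (delta_dC D₀ _ _)
  have m3 : piN F (tauP F) * (piN F (tauP F) * z₁ D₀.ν * (piN F (tauP F))⁻¹) * (piN F (tauP F))⁻¹ ∈ DN D₀ := by
    rw [T_zN, T_zN]
    exact mem_DN D₀ (delta_dC D₀ _ _)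
  rcases DN_elements D₀ hd with rfl | rfl | rfl | rfl
  · simp
  · exact m2
  · exact m3
  · rw [h6]
    exact m1

lemma hDP_odd : DN D₀ ≤ (pgoAut F (quadFormPlus 4 F)).map (piN F) :=
  Subgroup.map_mono (PgoInndiag.Data.le_pgo D₀)

lemma hsplit_odd (A : CO (quadFormPlus 4 F)) : piN F (psiO _ A) ∈ DN D₀ ∨ piN F (psiO _ A) * (piN F (cA F))⁻¹ ∈ DN D₀ := by
  rcases D₀.delta_values A with h | h
  · exact Or.inl (mem_DN D₀ h)
  · right
    rw [← map_inv, ← map_mul, ← map_inv, ← map_mul]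
    apply mem_DN D₀
    rw [map_mul, map_inv, h, delta_kap]
    simp

lemma hCD_odd : ∀ d ∈ DN D₀, piN F (cA F) * d * (piN F (cA F))⁻¹ ∈ DN D₀ := by
  intro d hd
  obtain ⟨A, hA, rfl⟩ := exists_of_mem_DN D₀ hd
  rw [← map_inv, ← map_mul, ← map_mul, ← map_inv, ← map_mul, ← map_mul]
  apply mem_DN D₀
  rw [map_mul, map_mul, map_inv, hA, delta_kap]
  simp

set_option maxHeartbeats 1000000 in
/-- Field automorphisms fix the class `z`. -/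
lemma S_z₁ (σ : F ≃+* F) : piN F (tauH F σ) * z₁ D₀.ν * (piN F (tauH F σ))⁻¹ = z₁ D₀.ν := by
  have hT := T_z₁ D₀ D₀.hν
  obtain ⟨h1, h2, h3, h4, h5, -⟩ := orbit_facts T_cube hT
  have hc := psiG_conj_psiO (semisim_sv (f := quadFormPlus 4 F) sv_quadFormPlus σ) (dC (C₀ D₀.ν) 1)
  set A' := coConj (semisim_sv (f := quadFormPlus 4 F) sv_quadFormPlus σ) (dC (C₀ D₀.ν) 1) with hA'
  have e : piN F (tauH F σ) * z₁ D₀.ν * (piN F (tauH F σ))⁻¹ = piN F (psiO _ A') := by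
    rw [← hc, z₁, zN, map_mul, map_mul, map_inv]
    rfl
  have hδ : D₀.delta A' = 1 := by
    rw [hA', delta_coConj, delta_dC]
  have hμ : D₀.multC A' = 1 := by
    rw [hA', multC_coConj, multC_dC, map_one]
  rw [e]
  have hne₁ : piN F (psiO _ A') ≠ 1 := by
    rw [← e]
    intro h
    apply h1
    have e2 : z₁ D₀.ν = (piN F (tauH F σ))⁻¹ * (piN F (tauH F σ) * z₁ D₀.ν * (piN F (tauH F σ))⁻¹) * piN F (tauH F σ) := by group
    rw [e2, h]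
    group
  rcases DN_elements D₀ (mem_DN D₀ hδ) with h | h | h | h
  · exact absurd h hne₁
  · exact h
  · exfalso
    rw [T_zN] at h
    refine ne_of_nonsq D₀ ?_ h
    rw [hμ, multC_dC, μ₁_C₀, inv_one, one_mul]
    exact D₀.hν
  · exfalso
    rw [T_zN, T_zN] at h
    refine ne_of_nonsq D₀ ?_ h
    rw [hμ, multC_dC, μ₁_C₁_C₀, inv_one, one_mul]
    exact D₀.hν

lemma ST_comm (σ : F ≃+* F) : piN F (tauH F σ) * piN F (tauP F) = piN F (tauP F) * piN F (tauH F σ) := by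
  rw [← map_mul, ← map_mul, tauP_tauHom]

lemma hSD_odd (σ : F ≃+* F) : ∀ d ∈ DN D₀, piN F (tauH F σ) * d = d * piN F (tauH F σ) := by
  intro d hd
  have hS : Commute (piN F (tauH F σ)) (piN F (tauP F)) := ST_comm σ
  have hz : Commute (piN F (tauH F σ)) (z₁ D₀.ν) := by
    have h := S_z₁ D₀ σ
    rw [mul_inv_eq_iff_eq_mul] at h
    exact h
  have h2 : Commute (piN F (tauH F σ)) (piN F (tauP F) * z₁ D₀.ν * (piN F (tauP F))⁻¹) :=
    (hS.mul_right hz).mul_right hS.inv_right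
  have h3 : Commute (piN F (tauH F σ)) (piN F (tauP F) * (piN F (tauP F) * z₁ D₀.ν * (piN F (tauP F))⁻¹) * (piN F (tauP F))⁻¹) :=
    (hS.mul_right h2).mul_right hS.inv_right
  rcases DN_elements D₀ hd with rfl | rfl | rfl | rfl
  · simp
  · exact hz
  · exact h2
  · exact h3

/-- The setup for `q` odd. -/
def setupOdd : OutD4.Setup (Out (POmega F (quadFormPlus 4 F))) (F ≃+* F) :=
  mkSetup (DN D₀) (hTD_odd D₀) (hDP_odd D₀) (hsplit_odd D₀)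

include D₀ in
/-- `Out(PΩ⁺₈(q))` up to the field automorphisms, for `q` odd. -/
theorem out_odd₈ : Nonempty (Out (POmega F (quadFormPlus 4 F)) ≃* Equiv.Perm (Fin 4) × (F ≃+* F)) :=
  (setupOdd D₀).out_odd (z := z₁ D₀.ν) (card_DN D₀) hSC_setup (hSD_odd D₀) (hCD_odd D₀)
    (mem_DN D₀ (delta_dC D₀ _ _)) (T_z₁ D₀ D₀.hν)

end odd

/-- The three cosets of `Γ` in `Aut(PΩ⁺₈(q))`. -/
theorem aut_cosets (α : MulAut (POmega F (quadFormPlus 4 F))) :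
    α ∈ gammaPOmega F (quadFormPlus 4 F) ∨ α * tauP F ∈ gammaPOmega F (quadFormPlus 4 F) ∨
      α * (tauP F) ^ 2 ∈ gammaPOmega F (quadFormPlus 4 F) := by
  rcases Nat.even_or_odd (Fintype.card F) with hq | hodd
  · exact coset_of_setup (setupEven hq) rfl rfl α
  · obtain ⟨D₀⟩ := PgoFamilies.nonempty_dataPlus (F := F) hodd 1
    exact coset_of_setup (setupOdd D₀) rfl rfl α

end Cfsg.Agent.Lib.TriAct

end
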