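import Mathlib

/-!
# Schur's lemma for sections: commuting endomorphisms of an irreducible finite abelian section commute.
-/

set_option autoImplicit false

namespace Cfsg.Agent.Lib.BauSchur

section abstract

variable {N : Type*} [AddCommGroup N] [Finite N]

/-- The commutant of an irreducible family of endomorphisms of a finite abelian group is commutative
(Schur and Wedderburn). -/
theorem end_comm_of_irreducible [Nontrivial N] (Γ : Set (AddMonoid.End N))
    (hirr : ∀ S : AddSubgroup N, (∀ γ ∈ Γ, ∀ x ∈ S, γ x ∈ S) → S = ⊥ ∨ S = ⊤)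
    (f g : AddMonoid.End N) (hf : ∀ γ ∈ Γ, γ * f = f * γ) (hg : ∀ γ ∈ Γ, γ * g = g * γ) :
    f * g = g * f := by
  let D : Subring (AddMonoid.End N) := Subring.centralizer Γ
  have hfD : f ∈ D := (Subring.mem_centralizer_iff).2 (fun γ hγ => hf γ hγ)
  have hgD : g ∈ D := (Subring.mem_centralizer_iff).2 (fun γ hγ => hg γ hγ)
  haveI : Finite (AddMonoid.End N) := by
    change Finite (N →+ N)
    exact Finite.of_injective (fun φ : N →+ N => (φ : N → N)) DFunLike.coe_injective
  haveI : Finite D := inferInstance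
  have hker : ∀ d : D, (d : AddMonoid.End N) ≠ 0 → Function.Injective (d : AddMonoid.End N) := by
    intro d hd
    let S : AddSubgroup N := AddMonoidHom.ker (d : N →+ N)
    have hS : ∀ γ ∈ Γ, ∀ x ∈ S, γ x ∈ S := by
      intro γ hγ x hx
      have h1 : γ * (d : AddMonoid.End N) = (d : AddMonoid.End N) * γ :=
        (Subring.mem_centralizer_iff).1 d.2 γ hγ
      have h2 : (d : AddMonoid.End N) (γ x) = γ ((d : AddMonoid.End N) x) := by
        have := congrArg (fun φ : AddMonoid.End N => φ x) h1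
        exact this.symm
      change (d : AddMonoid.End N) (γ x) = 0
      rw [h2]
      have hx' : (d : AddMonoid.End N) x = 0 := hx
      rw [hx', map_zero]
    rcases hirr S hS with h | h
    · intro a b hab
      have : a - b ∈ S := by
        change (d : AddMonoid.End N) (a - b) = 0
        rw [map_sub, hab, sub_self]
      rw [h, AddSubgroup.mem_bot] at this
      exact sub_eq_zero.mp this
    · exfalso
      apply hd
      ext x
      have : x ∈ S := by rw [h]; trivial
      exact this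
  haveI : NoZeroDivisors D := by
    refine ⟨fun {a b} hab => ?_⟩
    by_contra hc
    push Not at hc
    obtain ⟨ha, hb⟩ := hc
    have ha' : (a : AddMonoid.End N) ≠ 0 := fun h => ha (Subtype.ext h)
    have hb' : (b : AddMonoid.End N) ≠ 0 := fun h => hb (Subtype.ext h)
    apply hb'
    ext x
    apply hker a ha'
    have h2 : ((a * b : D) : AddMonoid.End N) x = 0 := by rw [hab]; rfl
    have h3 : (a : AddMonoid.End N) ((b : AddMonoid.End N) x) = 0 := h2
    rw [h3]
    exact (map_zero (a : AddMonoid.End N)).symm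
  haveI : Nontrivial D := by
    refine ⟨⟨0, 1, ?_⟩⟩
    intro h
    obtain ⟨x, hx⟩ := exists_ne (0 : N)
    have h2 : ((0 : D) : AddMonoid.End N) x = ((1 : D) : AddMonoid.End N) x := by rw [h]
    exact hx h2.symm
  haveI : IsDomain D := NoZeroDivisors.to_isDomain D
  have hfield : IsField D := Finite.isDomain_to_isField D
  have := hfield.mul_comm ⟨f, hfD⟩ ⟨g, hgD⟩
  exact congrArg Subtype.val this

end abstract

section sec

variable {G : Type*} [Group G] [Finite G]

/-- The abelian section `U / U₀`, additively. -/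
structure SecData (U U₀ : Subgroup G) : Prop where
  le : U₀ ≤ U
  norm : ∀ u ∈ U, ∀ v ∈ U₀, u * v * u⁻¹ ∈ U₀
  ab : ∀ a ∈ U, ∀ b ∈ U, a * b * a⁻¹ * b⁻¹ ∈ U₀

/-- `g` normalizes both `U` and `U₀`. -/
def NormSec (U U₀ : Subgroup G) (g : G) : Prop :=
  (∀ u ∈ U, g * u * g⁻¹ ∈ U) ∧ (∀ u ∈ U₀, g * u * g⁻¹ ∈ U₀)

/-- Schur's lemma on a section: two elements whose actions on the irreducible section `U/U₀` commute with a family
`E` have commuting actions. -/
theorem section_comm {U U₀ : Subgroup G} (hs : SecData U U₀) (E : Set G)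
    (hE : ∀ e ∈ E, NormSec U U₀ e)
    (hirr : ∀ Y : Subgroup G, Y ≤ U → U₀ ≤ Y → (∀ e ∈ E, ∀ y ∈ Y, e * y * e⁻¹ ∈ Y) → Y = U₀ ∨ Y = U)
    (hne : U₀ ≠ U) {y₁ y₂ : G} (h₁ : NormSec U U₀ y₁) (h₂ : NormSec U U₀ y₂)
    (hc₁ : ∀ e ∈ E, ∀ u ∈ U, (y₁ * (e * u * e⁻¹) * y₁⁻¹)⁻¹ * (e * (y₁ * u * y₁⁻¹) * e⁻¹) ∈ U₀)
    (hc₂ : ∀ e ∈ E, ∀ u ∈ U, (y₂ * (e * u * e⁻¹) * y₂⁻¹)⁻¹ * (e * (y₂ * u * y₂⁻¹) * e⁻¹) ∈ U₀)
    {u : G} (hu : u ∈ U) :
    (y₁ * (y₂ * u * y₂⁻¹) * y₁⁻¹)⁻¹ * (y₂ * (y₁ * u * y₁⁻¹) * y₂⁻¹) ∈ U₀ := by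
  classical
  let U' : Subgroup U := U₀.subgroupOf U
  haveI hU'n : U'.Normal := ⟨fun a ha g => by
    change ((g : G) * (a : G) * (g : G)⁻¹) ∈ U₀
    exact hs.norm g g.2 a ha⟩
  letI : CommGroup (U ⧸ U') :=
    { (inferInstance : Group (U ⧸ U')) with
      mul_comm := by
        intro a b
        induction a using QuotientGroup.induction_on with
        | H a =>
          induction b using QuotientGroup.induction_on with
          | H b =>
            rw [← QuotientGroup.mk_mul, ← QuotientGroup.mk_mul, QuotientGroup.eq]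
            change ((a * b)⁻¹ * (b * a) : U).1 ∈ U₀
            have h := hs.ab (b : G)⁻¹ (U.inv_mem b.2) (a : G)⁻¹ (U.inv_mem a.2)
            have e : ((a * b)⁻¹ * (b * a) : U).1 = (b : G)⁻¹ * (a : G)⁻¹ * ((b : G)⁻¹)⁻¹ * ((a : G)⁻¹)⁻¹ := by
              simp [mul_assoc]
            rw [e]
            exact h }
  let N := Additive (U ⧸ U')
  haveI : Finite N := inferInstanceAs (Finite (U ⧸ U'))
  -- conjugation induces endomorphisms
  let hom : ∀ g : G, NormSec U U₀ g → (U →* U) := fun g hg =>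
    { toFun := fun x => ⟨g * x * g⁻¹, hg.1 x x.2⟩
      map_one' := by ext; simp
      map_mul' := by intro a b; ext; simp [mul_assoc] }
  have hhom : ∀ (g : G) (hg : NormSec U U₀ g), U' ≤ U'.comap (hom g hg) := by
    intro g hg a ha
    exact hg.2 a ha
  let qh : ∀ g : G, NormSec U U₀ g → ((U ⧸ U') →* (U ⧸ U')) :=
    fun g hg => QuotientGroup.map U' U' (hom g hg) (hhom g hg)
  let en : ∀ g : G, NormSec U U₀ g → AddMonoid.End N := fun g hg => (qh g hg).toAdditive
  have hen : ∀ (g : G) (hg : NormSec U U₀ g) (x : U),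
      en g hg (Additive.ofMul (QuotientGroup.mk x)) = Additive.ofMul (QuotientGroup.mk (hom g hg x)) := by
    intro g hg x
    rfl
  haveI : Nontrivial N := by
    obtain ⟨a, haU, haU₀⟩ : ∃ a ∈ U, a ∉ U₀ := by
      by_contra hc
      push Not at hc
      exact hne (le_antisymm hs.le hc)
    refine ⟨⟨Additive.ofMul (QuotientGroup.mk ⟨a, haU⟩), 0, ?_⟩⟩
    intro h
    have h2 : (QuotientGroup.mk ⟨a, haU⟩ : U ⧸ U') = 1 := h
    have h3 := (QuotientGroup.eq_one_iff _).mp h2
    exact haU₀ h3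
  let Γ : Set (AddMonoid.End N) := {γ | ∃ (e : G) (he : e ∈ E), γ = en e (hE e he)}
  -- irreducibility
  have hirr' : ∀ S : AddSubgroup N, (∀ γ ∈ Γ, ∀ x ∈ S, γ x ∈ S) → S = ⊥ ∨ S = ⊤ := by
    intro S hS
    let Y : Subgroup G :=
      { carrier := {y | ∃ (hy : y ∈ U), Additive.ofMul (QuotientGroup.mk (⟨y, hy⟩ : U)) ∈ S}
        one_mem' := ⟨U.one_mem, by
          have : Additive.ofMul (QuotientGroup.mk (⟨1, U.one_mem⟩ : U) : U ⧸ U') = 0 := rfl
          rw [this]; exact S.zero_mem⟩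
        mul_mem' := by
          rintro a b ⟨ha, ha'⟩ ⟨hb, hb'⟩
          refine ⟨U.mul_mem ha hb, ?_⟩
          have := S.add_mem ha' hb'
          exact this
        inv_mem' := by
          rintro a ⟨ha, ha'⟩
          refine ⟨U.inv_mem ha, ?_⟩
          have := S.neg_mem ha'
          exact this }
    have hYU : Y ≤ U := fun y hy => hy.1
    have hU₀Y : U₀ ≤ Y := by
      intro v hv
      refine ⟨hs.le hv, ?_⟩
      have : (QuotientGroup.mk (⟨v, hs.le hv⟩ : U) : U ⧸ U') = 1 :=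
        (QuotientGroup.eq_one_iff _).mpr hv
      have h0 : Additive.ofMul (QuotientGroup.mk (⟨v, hs.le hv⟩ : U) : U ⧸ U') = 0 := by
        rw [this]; rfl
      rw [h0]; exact S.zero_mem
    have hEY : ∀ e ∈ E, ∀ y ∈ Y, e * y * e⁻¹ ∈ Y := by
      rintro e he y ⟨hy, hy'⟩
      refine ⟨(hE e he).1 y hy, ?_⟩
      have := hS _ ⟨e, he, rfl⟩ _ hy'
      exact this
    rcases hirr Y hYU hU₀Y hEY with h | h
    · left
      rw [eq_bot_iff]
      intro x hx
      obtain ⟨a, rfl⟩ : ∃ a : U ⧸ U', Additive.ofMul a = x := ⟨x.toMul, rfl⟩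
      induction a using QuotientGroup.induction_on with
      | H a =>
        have : (a : G) ∈ Y := ⟨a.2, hx⟩
        rw [h] at this
        have h2 : (QuotientGroup.mk a : U ⧸ U') = 1 := (QuotientGroup.eq_one_iff _).mpr this
        rw [AddSubgroup.mem_bot, h2]
        rfl
    · right
      rw [eq_top_iff]
      intro x _
      obtain ⟨a, rfl⟩ : ∃ a : U ⧸ U', Additive.ofMul a = x := ⟨x.toMul, rfl⟩
      induction a using QuotientGroup.induction_on with
      | H a =>
        have : (a : G) ∈ Y := by rw [h]; exact a.2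
        exact this.2
  -- commuting
  have hcomm : ∀ (y : G) (hy : NormSec U U₀ y),
      (∀ e ∈ E, ∀ u ∈ U, (y * (e * u * e⁻¹) * y⁻¹)⁻¹ * (e * (y * u * y⁻¹) * e⁻¹) ∈ U₀) →
      ∀ γ ∈ Γ, γ * en y hy = en y hy * γ := by
    rintro y hy hc γ ⟨e, he, rfl⟩
    ext x
    obtain ⟨a, rfl⟩ : ∃ a : U ⧸ U', Additive.ofMul a = x := ⟨x.toMul, rfl⟩
    induction a using QuotientGroup.induction_on with
    | H a =>
      apply Additive.toMul.injective
      change (QuotientGroup.mk (hom e (hE e he) (hom y hy a)) : U ⧸ U') =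
        QuotientGroup.mk (hom y hy (hom e (hE e he) a))
      rw [QuotientGroup.eq]
      have h := hc e he a a.2
      have h' := U₀.inv_mem h
      have e1 : ((hom e (hE e he) (hom y hy a))⁻¹ * hom y hy (hom e (hE e he) a) : U).1
          = ((y * (e * (a : G) * e⁻¹) * y⁻¹)⁻¹ * (e * (y * (a : G) * y⁻¹) * e⁻¹))⁻¹ := by
        change (e * (y * (a : G) * y⁻¹) * e⁻¹)⁻¹ * (y * (e * (a : G) * e⁻¹) * y⁻¹) = _
        group
      change ((hom e (hE e he) (hom y hy a))⁻¹ * hom y hy (hom e (hE e he) a) : U).1 ∈ U₀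
      rw [e1]
      exact h'
  have key := end_comm_of_irreducible Γ hirr' (en y₁ h₁) (en y₂ h₂) (hcomm y₁ h₁ hc₁) (hcomm y₂ h₂ hc₂)
  have key2 := congrArg (fun φ : AddMonoid.End N => φ (Additive.ofMul (QuotientGroup.mk (⟨u, hu⟩ : U)))) key
  have key3 : (QuotientGroup.mk (hom y₁ h₁ (hom y₂ h₂ ⟨u, hu⟩)) : U ⧸ U') =
      QuotientGroup.mk (hom y₂ h₂ (hom y₁ h₁ ⟨u, hu⟩)) := key2
  rw [QuotientGroup.eq] at key3
  exact key3

end sec

end Cfsg.Agent.Lib.BauSchur
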