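import Mathlib
import Cfsg.Prelude.Def_BaumannBlocks

/-!
# Irreducibility of the natural modules on sections

Subgroups between `U₀` and `U` normalized by `E`, when `E` acts on `U / U₀` as the derived group of `SL₂(F)` on `F²`
or as the alternating group on the even-weight module of odd degree.
-/

set_option autoImplicit false

open Cfsg
open scoped commutatorElement

namespace Cfsg.Agent.Lib.BauSec

section linear

variable {F : Type*} [Field F]

/-- Upper unitriangular element. -/
def upp (s : F) : Matrix.SpecialLinearGroup (Fin 2) F :=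
  ⟨!![1, s; 0, 1], by simp [Matrix.det_fin_two]⟩

/-- Lower unitriangular element. -/
def low (s : F) : Matrix.SpecialLinearGroup (Fin 2) F :=
  ⟨!![1, 0; s, 1], by simp [Matrix.det_fin_two]⟩

theorem upp_mul (s t : F) : upp s * upp t = upp (s + t) := by
  apply Subtype.ext
  show (!![1, s; 0, 1] * !![1, t; 0, 1] : Matrix (Fin 2) (Fin 2) F) = !![1, s + t; 0, 1]
  simp [Matrix.mul_fin_two, add_comm]

theorem low_mul (s t : F) : low s * low t = low (s + t) := by
  apply Subtype.ext
  show (!![1, 0; s, 1] * !![1, 0; t, 1] : Matrix (Fin 2) (Fin 2) F) = !![1, 0; s + t, 1]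
  simp [Matrix.mul_fin_two, add_comm]

theorem upp_zero : upp (0 : F) = 1 := by
  apply Subtype.ext
  ext i j; fin_cases i <;> fin_cases j <;> simp [upp]

theorem low_zero : low (0 : F) = 1 := by
  apply Subtype.ext
  ext i j; fin_cases i <;> fin_cases j <;> simp [low]

theorem upp_inv (s : F) : (upp s)⁻¹ = upp (-s) := by
  rw [inv_eq_iff_mul_eq_one, upp_mul]; simp [upp_zero]

theorem low_inv (s : F) : (low s)⁻¹ = low (-s) := by
  rw [inv_eq_iff_mul_eq_one, low_mul]; simp [low_zero]

/-- The commutator `⁅u(s), l(1/s)⁆`. -/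
theorem comm_upp_low_apply (s : F) (hs : s ≠ 0) (v : Fin 2 → F) :
    (((⁅upp s, low s⁻¹⁆ : Matrix.SpecialLinearGroup (Fin 2) F) : Matrix.SpecialLinearGroup (Fin 2) F) :
      Matrix (Fin 2) (Fin 2) F).mulVec v = ![3 * v 0 - s * v 1, s⁻¹ * v 0] := by
  have hm : ((⁅upp s, low s⁻¹⁆ : Matrix.SpecialLinearGroup (Fin 2) F) :
      Matrix (Fin 2) (Fin 2) F) = !![3, -s; s⁻¹, 0] := by
    rw [commutatorElement_def, upp_inv, low_inv]
    simp only [Matrix.SpecialLinearGroup.coe_mul]
    simp only [upp, low, Matrix.mul_fin_two]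
    ext i j
    fin_cases i <;> fin_cases j <;> simp [hs] <;> field_simp <;> ring
  rw [hm]
  funext i
  fin_cases i <;> simp [Matrix.mulVec, dotProduct, Fin.sum_univ_two] <;> ring

/-- An additive subgroup of `F²`, nonzero and invariant under the derived group of `SL₂(F)`, is everything. -/
theorem addSubgroup_eq_top (S : AddSubgroup (Fin 2 → F))
    (hS : ∀ g ∈ commutator (Matrix.SpecialLinearGroup (Fin 2) F), ∀ v ∈ S,
      ((g : Matrix.SpecialLinearGroup (Fin 2) F) : Matrix (Fin 2) (Fin 2) F).mulVec v ∈ S)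
    (hne : S ≠ ⊥) : S = ⊤ := by
  have hg : ∀ s : F, s ≠ 0 → ∀ v ∈ S, ![3 * v 0 - s * v 1, s⁻¹ * v 0] ∈ S := by
    intro s hs v hv
    rw [← comm_upp_low_apply s hs v]
    refine hS _ ?_ v hv
    rw [commutator_def]
    exact Subgroup.commutator_mem_commutator (Subgroup.mem_top _) (Subgroup.mem_top _)
  have hvec : ∀ v : Fin 2 → F, v = ![v 0, v 1] := by
    intro v; funext i; fin_cases i <;> rfl
  -- from `(0, c)` all `(x, 0)`
  have h1 : ∀ c : F, c ≠ 0 → ![0, c] ∈ S → ∀ x : F, ![x, 0] ∈ S := by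
    intro c hc hv x
    by_cases hx : x = 0
    · subst hx
      have : ![(0 : F), 0] = 0 := by funext i; fin_cases i <;> rfl
      rw [this]; exact S.zero_mem
    · have hs : -(x / c) ≠ 0 := neg_ne_zero.mpr (div_ne_zero hx hc)
      have := hg (-(x / c)) hs _ hv
      convert this using 1
      funext i
      fin_cases i <;> simp <;> field_simp
  -- from `(x, 0)` all `(0, y)`
  have h2 : ∀ x : F, x ≠ 0 → ![x, 0] ∈ S → ∀ y : F, ![0, y] ∈ S := by
    intro x hx hv y
    by_cases hy : y = 0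
    · subst hy
      have : ![(0 : F), 0] = 0 := by funext i; fin_cases i <;> rfl
      rw [this]; exact S.zero_mem
    · have hs : x / y ≠ 0 := div_ne_zero hx hy
      have h3 := hg (x / y) hs _ hv
      have h4 : ((3 : ℕ) • ![x, 0]) ∈ S := S.nsmul_mem hv 3
      have h5 := S.sub_mem h3 h4
      convert h5 using 1
      funext i
      fin_cases i
      · simp
      · simp; field_simp
  -- an axis vector exists
  obtain ⟨v, hv, hv0⟩ : ∃ v ∈ S, v ≠ 0 := by
    by_contra hcon
    push Not at hcon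
    apply hne
    rw [AddSubgroup.eq_bot_iff_forall]
    exact hcon
  have hall : (∃ c : F, c ≠ 0 ∧ ![0, c] ∈ S) ∨ (∃ x : F, x ≠ 0 ∧ ![x, 0] ∈ S) := by
    by_cases ha : v 0 = 0
    · left
      have hb : v 1 ≠ 0 := by
        intro hb
        apply hv0
        funext i; fin_cases i
        · exact ha
        · exact hb
      refine ⟨v 1, hb, ?_⟩
      have := hvec v
      rw [ha] at this
      rwa [← this]
    · by_cases hb : v 1 = 0
      · right
        refine ⟨v 0, ha, ?_⟩
        have := hvec v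
        rw [hb] at this
        rwa [← this]
      · left
        by_cases h3 : (3 : F) = 0
        · -- characteristic three
          have h2' : (2 : F) ≠ 0 := by
            intro h2'
            have : (1 : F) = 3 - 2 := by norm_num
            rw [h3, h2'] at this
            simp at this
          refine ⟨2 * v 1, mul_ne_zero h2' hb, ?_⟩
          have hs : v 0 / v 1 ≠ 0 := div_ne_zero ha hb
          have h6 := S.add_mem hv (hg (v 0 / v 1) hs v hv)
          convert h6 using 1
          funext i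
          fin_cases i
          · simp [h3]; field_simp; ring
          · simp; field_simp; ring
        · have hs : 3 * v 0 / v 1 ≠ 0 := div_ne_zero (mul_ne_zero h3 ha) hb
          refine ⟨v 1 / 3, div_ne_zero hb h3, ?_⟩
          have h6 := hg (3 * v 0 / v 1) hs v hv
          convert h6 using 1
          funext i
          fin_cases i
          · simp; field_simp; ring
          · simp; field_simp
  have hx : ∀ x : F, ![x, 0] ∈ S := by
    rcases hall with ⟨c, hc, h⟩ | ⟨x, hx, h⟩
    · exact h1 c hc h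
    · exact h1 1 one_ne_zero (h2 x hx h 1)
  have hy : ∀ y : F, ![0, y] ∈ S := h2 1 one_ne_zero (hx 1)
  rw [AddSubgroup.eq_top_iff']
  intro v
  have := S.add_mem (hx (v 0)) (hy (v 1))
  convert this using 1
  funext i
  fin_cases i <;> simp

end linear

section perm

variable {n : ℕ}

/-- Weight-two vectors. -/
def wt2 (a b : Fin n) : Fin n → ZMod 2 := Pi.single a 1 + Pi.single b 1

theorem wt2_left {a b : Fin n} (hab : a ≠ b) : wt2 a b a = 1 := by
  simp [wt2, Pi.single_eq_of_ne hab]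

theorem wt2_right {a b : Fin n} (hab : a ≠ b) : wt2 a b b = 1 := by
  simp [wt2, Pi.single_eq_of_ne hab.symm]

theorem wt2_other {a b k : Fin n} (hka : k ≠ a) (hkb : k ≠ b) : wt2 a b k = 0 := by
  simp [wt2, Pi.single_eq_of_ne hka, Pi.single_eq_of_ne hkb]

section cyc

variable {a b c : Fin n}

theorem cyc_a (hab : a ≠ b) (hbc : b ≠ c) (hac : a ≠ c) : (Equiv.swap a b * Equiv.swap b c)⁻¹ a = c := by
  simp [mul_inv_rev, Equiv.swap_inv, Equiv.Perm.mul_apply, Equiv.swap_apply_left]

theorem cyc_b (hab : a ≠ b) (hbc : b ≠ c) (hac : a ≠ c) : (Equiv.swap a b * Equiv.swap b c)⁻¹ b = a := by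
  simp only [mul_inv_rev, Equiv.swap_inv, Equiv.Perm.mul_apply, Equiv.swap_apply_right]
  exact Equiv.swap_apply_of_ne_of_ne hab hac

theorem cyc_c (hab : a ≠ b) (hbc : b ≠ c) (hac : a ≠ c) : (Equiv.swap a b * Equiv.swap b c)⁻¹ c = b := by
  simp only [mul_inv_rev, Equiv.swap_inv, Equiv.Perm.mul_apply]
  rw [Equiv.swap_apply_of_ne_of_ne hac.symm hbc.symm, Equiv.swap_apply_right]

theorem cyc_o {k : Fin n} (hka : k ≠ a) (hkb : k ≠ b) (hkc : k ≠ c) :
    (Equiv.swap a b * Equiv.swap b c)⁻¹ k = k := by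
  simp only [mul_inv_rev, Equiv.swap_inv, Equiv.Perm.mul_apply]
  rw [Equiv.swap_apply_of_ne_of_ne hka hkb, Equiv.swap_apply_of_ne_of_ne hkb hkc]

theorem cyc_mem (hab : a ≠ b) (hbc : b ≠ c) :
    (Equiv.swap a b * Equiv.swap b c) ∈ alternatingGroup (Fin n) := by
  rw [Equiv.Perm.mem_alternatingGroup, Equiv.Perm.sign_mul, Equiv.Perm.sign_swap hab, Equiv.Perm.sign_swap hbc]
  simp

theorem wt2_cycle (hab : a ≠ b) (hbc : b ≠ c) (hac : a ≠ c) :
    (fun k => wt2 a b ((Equiv.swap a b * Equiv.swap b c)⁻¹ k)) = wt2 b c := by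
  funext k
  by_cases hka : k = a
  · subst hka
    show wt2 k b ((Equiv.swap k b * Equiv.swap b c)⁻¹ k) = wt2 b c k
    rw [cyc_a hab hbc hac, wt2_other hac.symm hbc.symm, wt2_other hab hac]
  · by_cases hkb : k = b
    · subst hkb
      show wt2 a k ((Equiv.swap a k * Equiv.swap k c)⁻¹ k) = wt2 k c k
      rw [cyc_b hab hbc hac, wt2_left hab, wt2_left hbc]
    · by_cases hkc : k = c
      · subst hkc
        show wt2 a b ((Equiv.swap a b * Equiv.swap b k)⁻¹ k) = wt2 b k k
        rw [cyc_c hab hbc hac, wt2_right hab, wt2_right hbc]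
      · show wt2 a b ((Equiv.swap a b * Equiv.swap b c)⁻¹ k) = wt2 b c k
        rw [cyc_o hka hkb hkc, wt2_other hka hkb, wt2_other hkb hkc]

end cyc

theorem addSubgroup_even_eq (S : AddSubgroup (Fin n → ZMod 2)) (hn : Odd n)
    (hS0 : ∀ v ∈ S, ∑ i, v i = 0)
    (hS : ∀ g ∈ alternatingGroup (Fin n), ∀ v ∈ S, (fun i => v (g⁻¹ i)) ∈ S)
    (hne : S ≠ ⊥) (v : Fin n → ZMod 2) (hv : ∑ i, v i = 0) : v ∈ S := by
  classical
  obtain ⟨w, hw, hw0⟩ : ∃ w ∈ S, w ≠ 0 := by
    by_contra hcon
    push Not at hcon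
    apply hne
    rw [AddSubgroup.eq_bot_iff_forall]
    exact hcon
  -- values in `ZMod 2`
  have hval : ∀ x : ZMod 2, x = 0 ∨ x = 1 := by decide
  have hadd : ∀ x : ZMod 2, x + x = 0 := by decide
  -- the support of `w`
  set A : Finset (Fin n) := Finset.univ.filter (fun i => w i = 1) with hA
  have hsum : ∑ i, w i = (A.card : ZMod 2) := by
    rw [hA, Finset.card_filter]
    push_cast
    refine Finset.sum_congr rfl fun i _ => ?_
    rcases hval (w i) with h | h <;> simp [h]
  have hAeven : Even A.card := by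
    have := hS0 w hw
    rw [hsum] at this
    exact (ZMod.natCast_eq_zero_iff_even).mp this
  have hA2 : 2 ≤ A.card := by
    have hnz : A.card ≠ 0 := by
      intro h0
      apply hw0
      funext i
      rcases hval (w i) with h | h
      · exact h
      · have : i ∈ A := by simp [hA, h]
        rw [Finset.card_eq_zero] at h0
        rw [h0] at this
        simp at this
    obtain ⟨k, hk⟩ := hAeven
    omega
  obtain ⟨i₁, hi₁, i₂, hi₂, hi⟩ := Finset.one_lt_card.mp (by omega : 1 < A.card)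
  have hAn : A.card ≠ n := by
    intro h
    rw [h] at hAeven
    exact (Nat.not_even_iff_odd.mpr hn) hAeven
  obtain ⟨j, hj⟩ : ∃ j, j ∉ A := by
    by_contra hcon
    push Not at hcon
    apply hAn
    have : A = Finset.univ := Finset.eq_univ_of_forall hcon
    rw [this]; simp
  have hwi₁ : w i₁ = 1 := by simpa [hA] using hi₁
  have hwi₂ : w i₂ = 1 := by simpa [hA] using hi₂
  have hwj : w j = 0 := by
    rcases hval (w j) with h | h
    · exact h
    · exact absurd (by simp [hA, h]) hj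
  have hji₁ : j ≠ i₁ := fun h => hj (h ▸ hi₁)
  have hji₂ : j ≠ i₂ := fun h => hj (h ▸ hi₂)
  -- a weight two vector
  have hpair0 : wt2 i₁ j ∈ S := by
    have h1 := hS _ (cyc_mem hi hji₂.symm) w hw
    have h2 := S.add_mem hw h1
    convert h2 using 1
    funext k
    simp only [Pi.add_apply]
    by_cases hk1 : k = i₁
    · subst hk1
      rw [cyc_a hi hji₂.symm hji₁.symm, wt2_left hji₁.symm, hwi₁, hwj]
      simp
    · by_cases hk2 : k = i₂
      · subst hk2
        rw [cyc_b hi hji₂.symm hji₁.symm, wt2_other hk1 hji₂.symm, hwi₁, hwi₂]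
        exact (hadd 1).symm
      · by_cases hk3 : k = j
        · subst hk3
          rw [cyc_c hi hji₂.symm hji₁.symm, wt2_right hji₁.symm, hwj, hwi₂]
          simp
        · rw [cyc_o hk1 hk2 hk3, wt2_other hk1 hk3, hadd]
  -- all `e_{i₁} + e_c`
  have hpair1 : ∀ c : Fin n, wt2 i₁ c ∈ S := by
    intro c
    by_cases hc : c = i₁
    · subst hc
      have : wt2 c c = 0 := by
        funext k
        simp only [wt2, Pi.add_apply, Pi.zero_apply]
        exact hadd _
      rw [this]; exact S.zero_mem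
    · by_cases hcj : c = j
      · rw [hcj]; exact hpair0
      · have hne1 : i₁ ≠ j := hji₁.symm
        have hne2 : j ≠ c := Ne.symm hcj
        have hne3 : i₁ ≠ c := Ne.symm hc
        have h1 := hS _ (cyc_mem hne1 hne2) _ hpair0
        rw [wt2_cycle hne1 hne2 hne3] at h1
        have h2 := S.add_mem hpair0 h1
        convert h2 using 1
        funext k
        simp only [wt2, Pi.add_apply]
        have h3 := hadd ((Pi.single j 1 : Fin n → ZMod 2) k)
        calc (Pi.single i₁ 1 : Fin n → ZMod 2) k + (Pi.single c 1 : Fin n → ZMod 2) k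
            = (Pi.single i₁ 1 : Fin n → ZMod 2) k + (Pi.single c 1 : Fin n → ZMod 2) k +
                ((Pi.single j 1 : Fin n → ZMod 2) k + (Pi.single j 1 : Fin n → ZMod 2) k) := by rw [h3, add_zero]
          _ = _ := by ring
  have hv' : v = ∑ c, v c • wt2 i₁ c := by
    funext k
    rw [Finset.sum_apply]
    simp only [wt2, Pi.smul_apply, Pi.add_apply, smul_eq_mul, mul_add]
    rw [Finset.sum_add_distrib, ← Finset.sum_mul, hv, zero_mul, zero_add]
    rw [Finset.sum_eq_single k]
    · simp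
    · intro b _ hb
      rw [Pi.single_eq_of_ne hb.symm]; simp
    · simp
  rw [hv']
  refine S.sum_mem fun c _ => ?_
  rcases hval (v c) with h | h
  · rw [h, zero_smul]; exact S.zero_mem
  · rw [h, one_smul]; exact hpair1 c

end perm

section sections

variable {G : Type*} [Group G]

/-- The subgroups between `U₀` and `U` normalized by `E`, for the derived group of `SL₂(F)`. -/
theorem le_sup_of_sl2 {F : Type*} [Field F] {E U U₀ Y : Subgroup G}
    (h : ActsAsSL2OnSection F (commutator (Matrix.SpecialLinearGroup (Fin 2) F)) E U U₀)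
    (hYU : Y ≤ U) (hEY : E ≤ Subgroup.normalizer (Y : Set G)) (hY : ¬ Y ≤ U₀) : U ≤ Y ⊔ U₀ := by
  obtain ⟨_, _, ρ, ψ, hρ, hψ, hker, hact⟩ := h
  let S : AddSubgroup (Fin 2 → F) :=
    { carrier := {v | ∃ y : ↥U, (y : G) ∈ Y ∧ Multiplicative.toAdd (ψ y) = v}
      zero_mem' := ⟨1, Y.one_mem, by simp⟩
      add_mem' := by
        rintro _ _ ⟨a, ha, rfl⟩ ⟨b, hb, rfl⟩
        exact ⟨a * b, Y.mul_mem ha hb, by simp⟩
      neg_mem' := by
        rintro _ ⟨a, ha, rfl⟩
        exact ⟨a⁻¹, Y.inv_mem ha, by simp⟩ }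
  have hS : S = ⊤ := by
    apply addSubgroup_eq_top
    · rintro g hg _ ⟨y, hy, rfl⟩
      rw [← hρ] at hg
      obtain ⟨e, rfl⟩ := hg
      obtain ⟨w, hw, hw2⟩ := hact e y
      refine ⟨w, ?_, hw2⟩
      rw [hw]
      exact (Subgroup.mem_normalizer_iff.mp (hEY e.2) y).mp hy
    · intro hbot
      apply hY
      intro y hy
      have : Multiplicative.toAdd (ψ ⟨y, hYU hy⟩) ∈ S := ⟨⟨y, hYU hy⟩, hy, rfl⟩
      rw [hbot, AddSubgroup.mem_bot] at this
      exact (hker ⟨y, hYU hy⟩).mp this
  intro u hu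
  have : Multiplicative.toAdd (ψ ⟨u, hu⟩) ∈ S := by rw [hS]; trivial
  obtain ⟨y, hy, he⟩ := this
  have h1 : ψ (y⁻¹ * ⟨u, hu⟩) = 1 := by
    rw [map_mul, map_inv]
    have : ψ y = ψ ⟨u, hu⟩ := he
    rw [this]; simp
  have h2 := (hker _).mp h1
  have e : u = y * ((y⁻¹ * ⟨u, hu⟩ : ↥U) : G) := by simp
  rw [e]
  exact Subgroup.mul_mem_sup hy h2

/-- The subgroups between `U₀` and `U` normalized by `E`, for the alternating group of odd degree. -/
theorem le_sup_of_alt {n : ℕ} (hn : Odd n) {E U U₀ Y : Subgroup G}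
    (h : ActsAsOddPermModuleOnSection n (alternatingGroup (Fin n)) E U U₀)
    (hYU : Y ≤ U) (hEY : E ≤ Subgroup.normalizer (Y : Set G)) (hY : ¬ Y ≤ U₀) : U ≤ Y ⊔ U₀ := by
  obtain ⟨_, _, ρ, ψ, hρ, hsum, _, hker, hact⟩ := h
  let S : AddSubgroup (Fin n → ZMod 2) :=
    { carrier := {v | ∃ y : ↥U, (y : G) ∈ Y ∧ Multiplicative.toAdd (ψ y) = v}
      zero_mem' := ⟨1, Y.one_mem, by simp⟩
      add_mem' := by
        rintro _ _ ⟨a, ha, rfl⟩ ⟨b, hb, rfl⟩
        exact ⟨a * b, Y.mul_mem ha hb, by simp⟩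
      neg_mem' := by
        rintro _ ⟨a, ha, rfl⟩
        exact ⟨a⁻¹, Y.inv_mem ha, by simp⟩ }
  have hmem : ∀ v : Fin n → ZMod 2, ∑ i, v i = 0 → v ∈ S := by
    apply addSubgroup_even_eq S hn
    · rintro _ ⟨y, _, rfl⟩
      exact hsum y
    · rintro g hg _ ⟨y, hy, rfl⟩
      rw [← hρ] at hg
      obtain ⟨e, rfl⟩ := hg
      obtain ⟨w, hw, hw2⟩ := hact e y
      refine ⟨w, ?_, ?_⟩
      · rw [hw]
        exact (Subgroup.mem_normalizer_iff.mp (hEY e.2) y).mp hy
      · funext i
        exact hw2 i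
    · intro hbot
      apply hY
      intro y hy
      have : Multiplicative.toAdd (ψ ⟨y, hYU hy⟩) ∈ S := ⟨⟨y, hYU hy⟩, hy, rfl⟩
      rw [hbot, AddSubgroup.mem_bot] at this
      exact (hker ⟨y, hYU hy⟩).mp this
  intro u hu
  obtain ⟨y, hy, he⟩ := hmem _ (hsum ⟨u, hu⟩)
  have h1 : ψ (y⁻¹ * ⟨u, hu⟩) = 1 := by
    rw [map_mul, map_inv]
    have : ψ y = ψ ⟨u, hu⟩ := he
    rw [this]; simp
  have h2 := (hker _).mp h1
  have e : u = y * ((y⁻¹ * ⟨u, hu⟩ : ↥U) : G) := by simp
  rw [e]
  exact Subgroup.mul_mem_sup hy h2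

end sections

end Cfsg.Agent.Lib.BauSec
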