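import Mathlib

set_option autoImplicit false

namespace Cfsg.Agent.Lib.BertrandThree

open Nat Finset

/-- Three primes version of the Bertrand bound on the central binomial coefficient. -/
theorem centralBinom_le_of_few_primes (n : ℕ) (n_large : 2 < n)
    (few : (((Finset.Ioc n (2 * n)).filter Nat.Prime)).card ≤ 2) :
    centralBinom n ≤ (2 * n) ^ 2 * ((2 * n) ^ sqrt (2 * n) * 4 ^ (2 * n / 3)) := by
  have n_pos : 0 < n := (Nat.zero_le _).trans_lt n_large
  have n2_pos : 1 ≤ 2 * n := mul_pos (zero_lt_two' ℕ) n_pos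
  let f : ℕ → ℕ := fun x => x ^ n.centralBinom.factorization x
  have hprod : centralBinom n = ∏ p ∈ Finset.range (2 * n + 1), f p :=
    n.prod_pow_factorization_centralBinom.symm
  -- split off the small primes
  have hle : 2 * n / 3 + 1 ≤ 2 * n + 1 := by omega
  have hsub : Finset.range (2 * n / 3 + 1) ⊆ Finset.range (2 * n + 1) :=
    Finset.range_subset_range.2 hle
  have hsplit : ∏ p ∈ Finset.range (2 * n + 1), f p
      = (∏ p ∈ Finset.range (2 * n + 1) \ Finset.range (2 * n / 3 + 1), f p)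
        * ∏ p ∈ Finset.range (2 * n / 3 + 1), f p :=
    (Finset.prod_sdiff hsub).symm
  -- large part
  have hlarge : (∏ p ∈ Finset.range (2 * n + 1) \ Finset.range (2 * n / 3 + 1), f p) ≤ (2 * n) ^ 2 := by
    set S := (Finset.Ioc n (2 * n)).filter Nat.Prime with hS
    have h1 : ∏ p ∈ Finset.range (2 * n + 1) \ Finset.range (2 * n / 3 + 1), f p
        ≤ ∏ p ∈ S, f p := by
      have hsub' : S ⊆ Finset.range (2 * n + 1) \ Finset.range (2 * n / 3 + 1) := by
        intro p hp
        rw [hS, Finset.mem_filter, Finset.mem_Ioc] at hp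
        simp only [Finset.mem_sdiff, Finset.mem_range]
        omega
      apply le_of_eq
      symm
      apply Finset.prod_subset hsub'
      intro p hp hpS
      simp only [Finset.mem_sdiff, Finset.mem_range, not_lt] at hp
      have hp1 : 2 * n < 3 * p := by omega
      by_cases hpp : p.Prime
      · have hpn : p ≤ n := by
          by_contra hcon
          apply hpS
          rw [hS, Finset.mem_filter, Finset.mem_Ioc]
          exact ⟨⟨by omega, by omega⟩, hpp⟩
        show p ^ _ = 1
        rw [factorization_centralBinom_of_two_mul_self_lt_three_mul n_large hpn hp1, Nat.pow_zero]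
      · show p ^ _ = 1
        rw [factorization_eq_zero_of_not_prime n.centralBinom hpp, Nat.pow_zero]
    refine h1.trans ?_
    have h2 : ∀ p ∈ S, f p ≤ 2 * n := fun p _ =>
      pow_factorization_choose_le (mul_pos two_pos n_pos)
    calc ∏ p ∈ S, f p ≤ ∏ _p ∈ S, (2 * n) := Finset.prod_le_prod' h2
      _ = (2 * n) ^ S.card := by rw [Finset.prod_const]
      _ ≤ (2 * n) ^ 2 := pow_right_mono₀ n2_pos few
  -- small part, as in Mathlib
  have hsmall : (∏ p ∈ Finset.range (2 * n / 3 + 1), f p)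
      ≤ (2 * n) ^ sqrt (2 * n) * 4 ^ (2 * n / 3) := by
    let S := {p ∈ Finset.range (2 * n / 3 + 1) | Nat.Prime p}
    have : ∏ x ∈ S, f x = ∏ x ∈ Finset.range (2 * n / 3 + 1), f x := by
      refine Finset.prod_filter_of_ne fun p _ h => ?_
      contrapose h; dsimp only [f]
      rw [factorization_eq_zero_of_not_prime n.centralBinom h, _root_.pow_zero]
    rw [← this, ← Finset.prod_filter_mul_prod_filter_not S (· ≤ sqrt (2 * n))]
    apply mul_le_mul'
    · refine (Finset.prod_le_prod' fun p _ => (?_ : f p ≤ 2 * n)).trans ?_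
      · exact pow_factorization_choose_le (mul_pos two_pos n_pos)
      have : (Finset.Icc 1 (sqrt (2 * n))).card = sqrt (2 * n) := by rw [card_Icc, Nat.add_sub_cancel]
      rw [Finset.prod_const]
      refine pow_right_mono₀ n2_pos ((Finset.card_le_card fun x hx => ?_).trans this.le)
      obtain ⟨h1, h2⟩ := Finset.mem_filter.1 hx
      exact Finset.mem_Icc.mpr ⟨(Finset.mem_filter.1 h1).2.one_lt.le, h2⟩
    · refine le_trans ?_ (primorial_le_four_pow (2 * n / 3))
      refine (Finset.prod_le_prod' fun p hp => (?_ : f p ≤ p)).trans ?_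
      · obtain ⟨h1, h2⟩ := Finset.mem_filter.1 hp
        refine (pow_right_mono₀ (Finset.mem_filter.1 h1).2.one_lt.le ?_).trans (pow_one p).le
        exact Nat.factorization_choose_le_one (sqrt_lt'.mp <| not_le.1 h2)
      refine Finset.prod_le_prod_of_subset_of_one_le' (Finset.filter_subset _ _) ?_
      exact fun p hp _ => (Finset.mem_filter.1 hp).2.one_lt.le
  rw [hprod, hsplit]
  exact Nat.mul_le_mul hlarge hsmall

theorem aux_pow (t : ℕ) (ht : 16 ≤ t) : (4 * t + 4) ^ 2 ≤ 2 ^ t := by
  induction t, ht using Nat.le_induction with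
  | base => norm_num
  | succ t ht ih =>
    rw [pow_succ 2 t]
    nlinarith

/-- The main numerical inequality. -/
theorem main_ineq (n : ℕ) (hn : 2048 ≤ n) :
    n * ((2 * n) ^ 2 * ((2 * n) ^ sqrt (2 * n) * 4 ^ (2 * n / 3))) ≤ 4 ^ n := by
  set s := sqrt (2 * n) with hs
  have hs1 : s * s ≤ 2 * n := Nat.sqrt_le (2 * n)
  have hs2 : 2 * n < (s + 1) * (s + 1) := Nat.sqrt_lt.1 (Nat.lt_succ_self _) |>.trans_le (by nlinarith [Nat.succ_eq_add_one s])
  have hs64 : 64 ≤ s := by
    rw [hs, Nat.le_sqrt]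
    omega
  set t := s / 4 with ht
  have ht16 : 16 ≤ t := by omega
  have ht4 : 4 * t ≤ s := by omega
  have ht5 : s + 1 ≤ 4 * t + 4 := by omega
  have h2n : 2 * n ≤ 2 ^ t := by
    have h1 := aux_pow t ht16
    have h2 : (s + 1) * (s + 1) ≤ (4 * t + 4) ^ 2 := by nlinarith
    omega
  have hnle : n ≤ 2 ^ t := by omega
  set A := 2 * n / 3 with hA
  have hA3 : 3 * A ≤ 2 * n := by omega
  have hexp : t * (3 + s) + 2 * A ≤ 2 * n := by
    have h1 : 4 * (t * (3 + s)) ≤ s * (3 + s) := by nlinarith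
    have h2 : 64 * (3 * s) ≤ 3 * (s * s) := by nlinarith
    nlinarith
  calc n * ((2 * n) ^ 2 * ((2 * n) ^ s * 4 ^ A))
      ≤ 2 ^ t * ((2 ^ t) ^ 2 * ((2 ^ t) ^ s * 4 ^ A)) := by gcongr
    _ = 2 ^ (t * (3 + s) + 2 * A) := by
        rw [show (4 : ℕ) = 2 ^ 2 by norm_num, ← pow_mul, ← pow_mul, ← pow_mul, ← pow_add, ← pow_add, ← pow_add]
        congr 1
        ring
    _ ≤ 2 ^ (2 * n) := Nat.pow_le_pow_right (by norm_num) hexp
    _ = 4 ^ n := by rw [pow_mul]; norm_num

/-- At least three primes in `(n, 2n]` for `n ≥ 2048`. -/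
theorem three_lt_card (n : ℕ) (hn : 2048 ≤ n) :
    2 < ((Finset.Ioc n (2 * n)).filter Nat.Prime).card := by
  by_contra hcon
  have h1 := Nat.four_pow_lt_mul_centralBinom n (by omega)
  have h2 := centralBinom_le_of_few_primes n (by omega) (by omega)
  have h3 := main_ineq n hn
  have h4 : n * centralBinom n ≤ n * ((2 * n) ^ 2 * ((2 * n) ^ sqrt (2 * n) * 4 ^ (2 * n / 3))) :=
    Nat.mul_le_mul_left _ h2
  omega

/-- For `m ≥ 17`, a prime pair with `m < 2 p`, `p + 4 ≤ q`, `q ≤ m`. -/
theorem exists_prime_pair (m : ℕ) (hm : 17 ≤ m) :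
    ∃ p q : ℕ, p.Prime ∧ q.Prime ∧ m < 2 * p ∧ p + 4 ≤ q ∧ q ≤ m := by
  by_cases h1 : m ≤ 25
  · exact ⟨13, 17, by norm_num, by norm_num, by omega, by omega, by omega⟩
  by_cases h2 : m ≤ 37
  · exact ⟨19, 23, by norm_num, by norm_num, by omega, by omega, by omega⟩
  by_cases h3 : m ≤ 61
  · exact ⟨31, 37, by norm_num, by norm_num, by omega, by omega, by omega⟩
  by_cases h4 : m ≤ 105
  · exact ⟨53, 61, by norm_num, by norm_num, by omega, by omega, by omega⟩
  by_cases h5 : m ≤ 193
  · exact ⟨97, 103, by norm_num, by norm_num, by omega, by omega, by omega⟩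
  by_cases h6 : m ≤ 361
  · exact ⟨181, 193, by norm_num, by norm_num, by omega, by omega, by omega⟩
  by_cases h7 : m ≤ 705
  · exact ⟨353, 359, by norm_num, by norm_num, by omega, by omega, by omega⟩
  by_cases h8 : m ≤ 1381
  · exact ⟨691, 701, by norm_num, by norm_num, by omega, by omega, by omega⟩
  by_cases h9 : m ≤ 2745
  · exact ⟨1373, 1381, by norm_num, by norm_num, by omega, by omega, by omega⟩
  by_cases h10 : m ≤ 5461
  · exact ⟨2731, 2741, by norm_num, by norm_num, by omega, by omega, by omega⟩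
  -- the analytic range
  have hn : 2048 ≤ m / 2 := by omega
  have hcard := three_lt_card (m / 2) hn
  obtain ⟨a, ha, b, hb, c, hc, hab, hac, hbc⟩ := Finset.two_lt_card.1 hcard
  simp only [Finset.mem_filter, Finset.mem_Ioc] at ha hb hc
  have hao : a % 2 = 1 := by
    rcases ha.2.eq_two_or_odd with h | h <;> omega
  have hbo : b % 2 = 1 := by
    rcases hb.2.eq_two_or_odd with h | h <;> omega
  have hco : c % 2 = 1 := by
    rcases hc.2.eq_two_or_odd with h | h <;> omega
  -- choose the smallest and largest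
  rcases lt_or_gt_of_ne hab with h | h <;> rcases lt_or_gt_of_ne hac with h' | h' <;>
    rcases lt_or_gt_of_ne hbc with h'' | h''
  · exact ⟨a, c, ha.2, hc.2, by omega, by omega, by omega⟩
  · exact ⟨a, b, ha.2, hb.2, by omega, by omega, by omega⟩
  · omega
  · exact ⟨c, b, hc.2, hb.2, by omega, by omega, by omega⟩
  · exact ⟨b, c, hb.2, hc.2, by omega, by omega, by omega⟩
  · omega
  · exact ⟨b, a, hb.2, ha.2, by omega, by omega, by omega⟩
  · exact ⟨c, a, hc.2, ha.2, by omega, by omega, by omega⟩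

end Cfsg.Agent.Lib.BertrandThree
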