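/-
Quasisimple-like subgroups for the P(G,V)-theorem: a subgroup `K` of a group `X` with the normal
subgroup dichotomy, perfect and noncommutative.  Stable along nontrivial homomorphic images.  Commutator
generation lemma and noncentral elements of prime power order avoiding two given primes (Burnside).
-/
import Mathlib
import Cfsg.Prelude.Def_CaseTheorems
import Cfsg.Agent.Lib.BurnsidePQ
import Cfsg.Agent.Lib.LocalCore

set_option autoImplicit false

namespace Cfsg.Agent.Lib.BestOffQ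

open Cfsg
open scoped commutatorElement

universe u

/-- Quasisimple-like subgroup of `X`. -/
structure QSL {X : Type*} [Group X] (K : Subgroup X) : Prop where
  normal : ∀ E : Subgroup X, E ≤ K → (∀ h ∈ K, ∀ g ∈ E, h * g * h⁻¹ ∈ E) →
    (∀ g ∈ E, ∀ h ∈ K, g * h = h * g) ∨ K ≤ E
  perfect : ⁅K, K⁆ = K
  noncomm : ∃ x ∈ K, ∃ y ∈ K, x * y ≠ y * x

variable {X : Type*} [Group X]

theorem QSL.of_isQuasisimple {K : Subgroup X} (hK : IsQuasisimple K) : QSL K := by
  have hperf : ⁅K, K⁆ = K := by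
    have : Group.IsPerfect K := hK.1
    exact Subgroup.commutator_eq_self
  refine ⟨?_, hperf, ?_⟩
  · intro E hEK hE
    have hN : (E.subgroupOf K).Normal := by
      constructor
      intro n hn g
      rw [Subgroup.mem_subgroupOf] at hn ⊢
      exact hE g.1 g.2 n.1 hn
    rcases LocalCore.qs_normal hK (E.subgroupOf K) with h | h
    · right
      intro k hk
      have : (⟨k, hk⟩ : K) ∈ E.subgroupOf K := h ▸ Subgroup.mem_top _
      exact Subgroup.mem_subgroupOf.mp this
    · left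
      intro g hg k hk
      have h1 : (⟨g, hEK hg⟩ : K) ∈ E.subgroupOf K := Subgroup.mem_subgroupOf.mpr hg
      have h2 := h h1
      rw [Subgroup.mem_center_iff] at h2
      have := h2 ⟨k, hk⟩
      have h3 := congrArg Subtype.val this
      exact h3.symm
  · by_contra hc
    push Not at hc
    have hcomm : IsMulCommutative K := ⟨⟨fun a b => Subtype.ext (hc a.1 a.2 b.1 b.2)⟩⟩
    have hnt : Nontrivial K := LocalCore.qs_nontrivial hK
    have hbot : ⁅K, K⁆ = ⊥ := by
      rw [Subgroup.commutator_eq_bot_iff_le_centralizer]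
      intro a ha
      rw [Subgroup.mem_centralizer_iff]
      intro b hb
      exact hc b hb a ha
    rw [hperf] at hbot
    obtain ⟨⟨a, ha⟩, ⟨b, hb⟩, hab⟩ := hnt
    apply hab
    have h1 : a = 1 := by
      have : a ∈ (⊥ : Subgroup X) := hbot ▸ ha
      exact this
    have h2 : b = 1 := by
      have : b ∈ (⊥ : Subgroup X) := hbot ▸ hb
      exact this
    exact Subtype.ext (h1.trans h2.symm)

/-- If `q` normalizes `K` without centralizing it and `D` contains all `q h q⁻¹ h⁻¹`, then `K ≤ D`. -/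
theorem QSL.le_of_comm {K : Subgroup X} (hK : QSL K) {q : X} (hqn : ∀ h ∈ K, q * h * q⁻¹ ∈ K)
    (hqc : ∃ h ∈ K, q * h * q⁻¹ ≠ h) {D : Subgroup X} (hD : ∀ h ∈ K, q * h * q⁻¹ * h⁻¹ ∈ D) :
    K ≤ D := by
  set S : Set X := {g | ∃ h ∈ K, g = q * h * q⁻¹ * h⁻¹} with hS
  set E := Subgroup.closure S with hE
  have hEK : E ≤ K := by
    rw [hE, Subgroup.closure_le]
    rintro g ⟨h, hh, rfl⟩
    exact K.mul_mem (hqn h hh) (K.inv_mem hh)
  have hED : E ≤ D := by
    rw [hE, Subgroup.closure_le]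
    rintro g ⟨h, hh, rfl⟩
    exact hD h hh
  have hnorm : ∀ y ∈ K, ∀ g ∈ E, y * g * y⁻¹ ∈ E := by
    intro y hy g hg
    induction hg using Subgroup.closure_induction with
    | mem g hg =>
      obtain ⟨h, hh, rfl⟩ := hg
      have e : y * (q * h * q⁻¹ * h⁻¹) * y⁻¹
          = (q * y * q⁻¹ * y⁻¹)⁻¹ * (q * (y * h) * q⁻¹ * (y * h)⁻¹) := by group
      rw [e]
      exact E.mul_mem (E.inv_mem (Subgroup.subset_closure ⟨y, hy, rfl⟩))
        (Subgroup.subset_closure ⟨y * h, K.mul_mem hy hh, rfl⟩)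
    | one => simp [E.one_mem]
    | mul a b _ _ ha hb =>
      have e : y * (a * b) * y⁻¹ = (y * a * y⁻¹) * (y * b * y⁻¹) := by group
      rw [e]; exact E.mul_mem ha hb
    | inv a _ ha =>
      have e : y * a⁻¹ * y⁻¹ = (y * a * y⁻¹)⁻¹ := by group
      rw [e]; exact E.inv_mem ha
  rcases hK.normal E hEK hnorm with hc | hle
  · -- central case: the map is a homomorphism to the centre, hence trivial
    exfalso
    obtain ⟨h₀, hh₀, hne⟩ := hqc
    have hcen : ∀ h ∈ K, ∀ y ∈ K, (q * h * q⁻¹ * h⁻¹) * y = y * (q * h * q⁻¹ * h⁻¹) := by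
      intro h hh y hy
      exact hc _ (Subgroup.subset_closure ⟨h, hh, rfl⟩) y hy
    have hmul : ∀ a ∈ K, ∀ b ∈ K, q * (a * b) * q⁻¹ * (a * b)⁻¹
        = (q * a * q⁻¹ * a⁻¹) * (q * b * q⁻¹ * b⁻¹) := by
      intro a ha b hb
      have h1 := hcen b hb a ha
      have e : q * (a * b) * q⁻¹ * (a * b)⁻¹
          = (q * a * q⁻¹ * a⁻¹) * (a * (q * b * q⁻¹ * b⁻¹) * a⁻¹) := by group
      rw [e, ← h1]
      group
    -- the set where it is trivial contains all commutators
    have hcomm : ∀ a ∈ K, ∀ b ∈ K, ∀ c, c = ⁅a, b⁆ → q * c * q⁻¹ * c⁻¹ = 1 := by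
      intro a ha b hb c hc'
      subst hc'
      have hinv : ∀ a ∈ K, q * a⁻¹ * q⁻¹ * (a⁻¹)⁻¹ = (q * a * q⁻¹ * a⁻¹)⁻¹ := by
        intro a ha
        have h0 := hmul a ha a⁻¹ (K.inv_mem ha)
        have e1 : q * (a * a⁻¹) * q⁻¹ * (a * a⁻¹)⁻¹ = 1 := by group
        rw [e1] at h0
        exact (eq_inv_of_mul_eq_one_right h0.symm)
      have hab : ⁅a, b⁆ = a * b * a⁻¹ * b⁻¹ := rfl
      rw [hab, hmul _ (K.mul_mem (K.mul_mem ha hb) (K.inv_mem ha)) _ (K.inv_mem hb),
        hmul _ (K.mul_mem ha hb) _ (K.inv_mem ha), hmul _ ha _ hb, hinv a ha, hinv b hb]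
      have hc1 := hcen a ha (q * b * q⁻¹ * b⁻¹) (K.mul_mem (hqn b hb) (K.inv_mem hb))
      rw [hc1]
      group
    set C : Subgroup X :=
      { carrier := {c | c ∈ K ∧ q * c * q⁻¹ * c⁻¹ = 1}
        mul_mem' := by
          rintro a b ⟨ha, ha'⟩ ⟨hb, hb'⟩
          exact ⟨K.mul_mem ha hb, by rw [hmul a ha b hb, ha', hb', one_mul]⟩
        one_mem' := ⟨K.one_mem, by group⟩
        inv_mem' := by
          rintro a ⟨ha, ha'⟩
          refine ⟨K.inv_mem ha, ?_⟩
          have h0 := hmul a ha a⁻¹ (K.inv_mem ha)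
          have e1 : q * (a * a⁻¹) * q⁻¹ * (a * a⁻¹)⁻¹ = 1 := by group
          rw [e1, ha', one_mul] at h0
          exact h0.symm } with hC
    have hKC : K ≤ C := by
      have : ⁅K, K⁆ ≤ C := by
        rw [Subgroup.commutator_le]
        intro a ha b hb
        exact ⟨K.mul_mem (K.mul_mem (K.mul_mem ha hb) (K.inv_mem ha)) (K.inv_mem hb), hcomm a ha b hb _ rfl⟩
      rwa [hK.perfect] at this
    have := (hKC hh₀).2
    apply hne
    have h2 : q * h₀ * q⁻¹ * h₀⁻¹ * h₀ = 1 * h₀ := by rw [this]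
    simpa using h2
  · exact hle.trans hED

/-- Nontrivial homomorphic images of `K`. -/
theorem QSL.range {K : Subgroup X} (hK : QSL K) {Y : Type*} [Group Y] (φ : K →* Y)
    (hφ : ∃ x, φ x ≠ 1) : QSL φ.range := by
  have hperfK : ⁅(⊤ : Subgroup K), (⊤ : Subgroup K)⁆ = ⊤ := by
    apply Subgroup.map_injective K.subtype_injective
    rw [Subgroup.map_commutator, ← MonoidHom.range_eq_map, Subgroup.range_subtype, hK.perfect]
  have hperf : ⁅φ.range, φ.range⁆ = φ.range := by
    rw [MonoidHom.range_eq_map, ← Subgroup.map_commutator, hperfK]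
  refine ⟨?_, hperf, ?_⟩
  · intro E hE hnorm
    set E₀ : Subgroup X := (E.comap φ).map K.subtype with hE₀
    have hE₀K : E₀ ≤ K := by
      rintro _ ⟨a, _, rfl⟩
      exact a.2
    have hn : ∀ h ∈ K, ∀ g ∈ E₀, h * g * h⁻¹ ∈ E₀ := by
      rintro h hh _ ⟨a, ha, rfl⟩
      refine ⟨⟨h, hh⟩ * a * ⟨h, hh⟩⁻¹, ?_, rfl⟩
      have ha' : φ a ∈ E := ha
      show φ (⟨h, hh⟩ * a * ⟨h, hh⟩⁻¹) ∈ E
      rw [map_mul, map_mul, map_inv]
      exact hnorm _ ⟨_, rfl⟩ _ ha'
    rcases hK.normal E₀ hE₀K hn with hc | hle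
    · left
      intro g hg h hh
      obtain ⟨a, rfl⟩ := hE hg
      obtain ⟨b, rfl⟩ := hh
      have h1 : (a : X) ∈ E₀ := ⟨a, hg, rfl⟩
      have h2 := hc _ h1 b.1 b.2
      rw [← map_mul, ← map_mul]
      exact congrArg φ (Subtype.ext h2)
    · right
      rintro _ ⟨a, rfl⟩
      obtain ⟨b, hb, hab⟩ := hle a.2
      have : b = a := Subtype.ext hab
      exact this ▸ hb
  · by_contra hc
    push Not at hc
    obtain ⟨x, hx⟩ := hφ
    have hbot : ⁅φ.range, φ.range⁆ = ⊥ := by
      rw [Subgroup.commutator_eq_bot_iff_le_centralizer]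
      intro a ha
      rw [Subgroup.mem_centralizer_iff]
      intro b hb
      exact hc b hb a ha
    rw [hperf] at hbot
    apply hx
    have : φ x ∈ (⊥ : Subgroup Y) := hbot ▸ ⟨x, rfl⟩
    exact this

/-- A `QSL` subgroup of a finite group is not solvable. -/
theorem QSL.not_isSolvable {K : Subgroup X} (hK : QSL K) : ¬ Group.IsSolvable K := by
  intro hs
  have hperfK : ⁅(⊤ : Subgroup K), (⊤ : Subgroup K)⁆ = ⊤ := by
    apply Subgroup.map_injective K.subtype_injective
    rw [Subgroup.map_commutator, ← MonoidHom.range_eq_map, Subgroup.range_subtype, hK.perfect]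
  have hd : ∀ n, derivedSeries K n = ⊤ := by
    intro n
    induction n with
    | zero => rfl
    | succ n ih => rw [derivedSeries_succ, ih, hperfK]
  obtain ⟨n, hn⟩ := hs.solvable
  have htop : (⊤ : Subgroup K) = ⊥ := (hd n).symm.trans hn
  obtain ⟨x, hx, y, hy, hne⟩ := hK.noncomm
  apply hne
  have h1 : (⟨x, hx⟩ : K) = 1 := by
    have : (⟨x, hx⟩ : K) ∈ (⊥ : Subgroup K) := htop ▸ Subgroup.mem_top _
    exact this
  have h2 : x = 1 := congrArg Subtype.val h1
  simp [h2]

/-- Noncentral elements of prime power order avoiding two given primes. -/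
theorem QSL.exists_noncentral [Finite X] {K : Subgroup X} (hK : QSL K) (r s : ℕ) (hr : r.Prime)
    (hs : s.Prime) : ∃ ℓ : ℕ, ℓ.Prime ∧ ℓ ≠ r ∧ ℓ ≠ s ∧ ∃ x ∈ K, ∃ k : ℕ, orderOf x = ℓ ^ k ∧
      ∃ y ∈ K, x * y ≠ y * x := by
  classical
  by_cases hprimes : ∀ ℓ : ℕ, ℓ.Prime → ℓ ∣ Nat.card (K ⧸ Subgroup.center K) → ℓ = r ∨ ℓ = s
  · exfalso
    set n := Nat.card (K ⧸ Subgroup.center K) with hn
    have hn0 : n ≠ 0 := Nat.card_pos.ne'
    have hm : ordCompl[s] (ordCompl[r] n) = 1 := by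
      rw [Nat.eq_one_iff_not_exists_prime_dvd]
      intro ℓ hℓ hdvd
      have h1 : ordCompl[s] (ordCompl[r] n) ∣ ordCompl[r] n := Nat.ordCompl_dvd _ _
      have h2 : ordCompl[r] n ∣ n := Nat.ordCompl_dvd _ _
      rcases hprimes ℓ hℓ (hdvd.trans (h1.trans h2)) with rfl | rfl
      · exact Nat.not_dvd_ordCompl hℓ hn0 (hdvd.trans h1)
      · exact Nat.not_dvd_ordCompl hℓ (Nat.ne_of_gt (Nat.ordCompl_pos _ hn0)) hdvd
    have hcard : ∃ a b, n = r ^ a * s ^ b := by
      refine ⟨n.factorization r, (ordCompl[r] n).factorization s, ?_⟩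
      have h3 := Nat.ordProj_mul_ordCompl_eq_self (ordCompl[r] n) s
      rw [hm, mul_one] at h3
      rw [h3]
      exact (Nat.ordProj_mul_ordCompl_eq_self n r).symm
    have hsolQ : Group.IsSolvable (K ⧸ Subgroup.center K) :=
      BurnsidePQ.isSolvable_of_card_eq r s hr hs n _ rfl hcard
    have hsolZ : Group.IsSolvable (Subgroup.center K) :=
      Group.isSolvable_of_comm (fun a b => by
        apply Subtype.ext
        have := (Subgroup.mem_center_iff.mp a.2) b.1
        exact this.symm)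
    have : Group.IsSolvable K :=
      Group.isSolvable_of_ker_le_range (Subgroup.center K).subtype (QuotientGroup.mk' (Subgroup.center K))
        (by
          rw [QuotientGroup.ker_mk', Subgroup.range_subtype])
    exact hK.not_isSolvable this
  · push Not at hprimes
    obtain ⟨ℓ, hℓ, hdvd, h1, h2⟩ := hprimes
    have := Fact.mk hℓ
    obtain ⟨q, hq⟩ := exists_prime_orderOf_dvd_card' ℓ hdvd
    obtain ⟨g, rfl⟩ := QuotientGroup.mk'_surjective (Subgroup.center K) q
    have hg0 : orderOf g ≠ 0 := (orderOf_pos g).ne'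
    have hdiv : ℓ ^ (orderOf g).factorization ℓ ∣ orderOf g := Nat.ordProj_dvd _ _
    set m := orderOf g / ℓ ^ (orderOf g).factorization ℓ with hm
    have hord : orderOf (g ^ m) = ℓ ^ (orderOf g).factorization ℓ :=
      orderOf_pow_orderOf_div hg0 hdiv
    have hmnd : ¬ ℓ ∣ m := Nat.not_dvd_ordCompl hℓ hg0
    refine ⟨ℓ, hℓ, h1, h2, ((g ^ m : K) : X), (g ^ m).2, (orderOf g).factorization ℓ, ?_, ?_⟩
    · rw [Subgroup.orderOf_coe, hord]
    · by_contra hcon
      push Not at hcon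
      have hcen : g ^ m ∈ Subgroup.center K := by
        rw [Subgroup.mem_center_iff]
        intro y
        exact Subtype.ext (hcon y.1 y.2).symm
      have h0 : (QuotientGroup.mk' (Subgroup.center K) g) ^ m = 1 := by
        rw [← map_pow, MonoidHom.mem_ker.mp (by rw [QuotientGroup.ker_mk']; exact hcen)]
      have := orderOf_dvd_of_pow_eq_one h0
      rw [hq] at this
      exact hmnd this

end Cfsg.Agent.Lib.BestOffQ
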