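/-
Operator algebra for the P(G,V)-theorem.  `dl a x n` is the product of the first `n` conjugates of `x` under
powers of `a`.  If `q` normalizes `K` (quasisimple-like), does not centralize it, commutes with `a` and
satisfies `(a-1)(q-1) = 0 = (q-1)(a-1)`, then `dl a x N` has the same property.  For `N = p ≥ 3` in
characteristic `p` this is contradictory.
-/
import Mathlib
import Cfsg.Agent.Lib.BestOffQ

set_option autoImplicit false

namespace Cfsg.Agent.Lib.BestOffOp

open Cfsg.Agent.Lib.BestOffQ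

section Grp

variable {X : Type*} [Group X]

/-- Conjugation by `a ^ i`. -/
def cj (a : X) (i : ℕ) (x : X) : X := a ^ i * x * (a ^ i)⁻¹

theorem cj_zero (a x : X) : cj a 0 x = x := by simp [cj]

theorem cj_mul (a : X) (i : ℕ) (x y : X) : cj a i (x * y) = cj a i x * cj a i y := by
  simp [cj, mul_assoc]

theorem cj_inv (a : X) (i : ℕ) (x : X) : cj a i x⁻¹ = (cj a i x)⁻¹ := by
  simp [cj, mul_assoc]

theorem cj_one (a : X) (i : ℕ) : cj a i 1 = 1 := by simp [cj]

theorem cj_succ (a : X) (i : ℕ) (x : X) : cj a (i + 1) x = a * cj a i x * a⁻¹ := by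
  simp only [cj, pow_succ', mul_inv_rev, mul_assoc]

/-- The product of the first `n` conjugates. -/
def dl (a x : X) : ℕ → X
  | 0 => 1
  | n + 1 => dl a x n * cj a n x

theorem dl_zero (a x : X) : dl a x 0 = 1 := rfl

theorem dl_succ (a x : X) (n : ℕ) : dl a x (n + 1) = dl a x n * cj a n x := rfl

/-- Pairwise commuting conjugates. -/
def Hc (a : X) (K : Subgroup X) (N : ℕ) : Prop :=
  ∀ i < N, ∀ j < N, i ≠ j → ∀ y ∈ K, ∀ z ∈ K, cj a i y * cj a j z = cj a j z * cj a i y

variable {a : X} {K : Subgroup X} {N : ℕ}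

theorem commute_cj_dl (hc : Hc a K N) {i n : ℕ} (hi : i < N) (hn : n ≤ i) {y z : X} (hy : y ∈ K)
    (hz : z ∈ K) : cj a i y * dl a z n = dl a z n * cj a i y := by
  induction n with
  | zero => simp [dl_zero]
  | succ n ih =>
    have h1 := ih (by omega)
    have h2 := hc i hi n (by omega) (by omega) y hy z hz
    rw [dl_succ, ← mul_assoc, h1, mul_assoc, h2, mul_assoc]

theorem commute_cj_dl_self (hc : Hc a K N) {i n : ℕ} (hi : i < N) (hn : n ≤ N) {x : X} (hx : x ∈ K) :
    cj a i x * dl a x n = dl a x n * cj a i x := by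
  induction n with
  | zero => simp [dl_zero]
  | succ n ih =>
    have h1 := ih (by omega)
    rw [dl_succ, ← mul_assoc, h1, mul_assoc]
    by_cases hin : i = n
    · subst hin; rw [mul_assoc]
    · rw [hc i hi n (by omega) hin x hx x hx, mul_assoc]

theorem dl_mul (hc : Hc a K N) {x y : X} (hx : x ∈ K) (hy : y ∈ K) {n : ℕ} (hn : n ≤ N) :
    dl a (x * y) n = dl a x n * dl a y n := by
  induction n with
  | zero => simp [dl_zero]
  | succ n ih =>
    have h1 := ih (by omega)
    have h2 := commute_cj_dl hc (i := n) (n := n) (by omega) le_rfl hx hy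
    rw [dl_succ, h1, cj_mul, dl_succ, dl_succ]
    calc dl a x n * dl a y n * (cj a n x * cj a n y)
        = dl a x n * (dl a y n * cj a n x) * cj a n y := by group
      _ = dl a x n * (cj a n x * dl a y n) * cj a n y := by rw [h2]
      _ = _ := by group

/-- `dl` as a homomorphism. -/
def dlHom (hc : Hc a K N) : K →* X where
  toFun x := dl a (x : X) N
  map_one' := by
    have h : ∀ n, dl a (1 : X) n = 1 := by
      intro n
      induction n with
      | zero => rfl
      | succ n ih => rw [dl_succ, ih, cj_one, one_mul]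
    exact h N
  map_mul' x y := dl_mul hc x.2 y.2 le_rfl

theorem dlHom_apply (hc : Hc a K N) (x : K) : dlHom hc x = dl a (x : X) N := rfl

theorem shift_dl (x : X) (n : ℕ) : x * (a * dl a x n * a⁻¹) = dl a x (n + 1) := by
  induction n with
  | zero => simp [dl_zero, dl_succ, cj_zero]
  | succ n ih =>
    calc x * (a * dl a x (n + 1) * a⁻¹) = x * (a * (dl a x n * cj a n x) * a⁻¹) := rfl
      _ = (x * (a * dl a x n * a⁻¹)) * (a * cj a n x * a⁻¹) := by group
      _ = dl a x (n + 1) * cj a (n + 1) x := by rw [ih, cj_succ]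

/-- `a` centralizes `dl a x N` when `a ^ N = 1`. -/
theorem comm_dl (hc : Hc a K N) (haN : a ^ N = 1) (hN : 0 < N) {x : X} (hx : x ∈ K) :
    a * dl a x N * a⁻¹ = dl a x N := by
  have h1 := shift_dl (a := a) x N
  have h2 : cj a N x = x := by simp [cj, haN]
  rw [dl_succ, h2] at h1
  have h3 := commute_cj_dl_self hc (i := 0) (n := N) hN le_rfl hx
  rw [cj_zero] at h3
  rw [← h3] at h1
  exact mul_left_cancel h1

/-- Conjugating by an element commuting with `a`. -/
theorem conj_dl {c : X} (hca : c * a = a * c) (x : X) (n : ℕ) :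
    c * dl a x n * c⁻¹ = dl a (c * x * c⁻¹) n := by
  induction n with
  | zero => simp [dl_zero]
  | succ n ih =>
    rw [dl_succ, dl_succ, ← ih]
    have h : c * cj a n x * c⁻¹ = cj a n (c * x * c⁻¹) := by
      have h1 : Commute c (a ^ n) := (show Commute c a from hca).pow_right n
      simp only [cj]
      calc c * (a ^ n * x * (a ^ n)⁻¹) * c⁻¹
          = (c * a ^ n) * x * (c * a ^ n)⁻¹ := by group
        _ = (a ^ n * c) * x * (a ^ n * c)⁻¹ := by rw [h1.eq]
        _ = _ := by group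
    rw [← h]
    group

/-- The tail of `dl` lies in the closure of the later conjugates. -/
def tailSet (a : X) (K : Subgroup X) (N : ℕ) : Set X := {g | ∃ i, 1 ≤ i ∧ i < N ∧ ∃ y ∈ K, g = cj a i y}

theorem dl_split {x : X} (hx : x ∈ K) {n : ℕ} (hn1 : 1 ≤ n) (hn : n ≤ N) :
    ∃ e ∈ Subgroup.closure (tailSet a K N), dl a x n = x * e := by
  induction n, hn1 using Nat.le_induction with
  | base => exact ⟨1, Subgroup.one_mem _, by simp [dl_succ, dl_zero, cj_zero]⟩
  | succ n hn1 ih =>
    obtain ⟨e, he, h⟩ := ih (by omega)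
    refine ⟨e * cj a n x, Subgroup.mul_mem _ he
      (Subgroup.subset_closure ⟨n, hn1, by omega, x, hx, rfl⟩), ?_⟩
    rw [dl_succ, h, mul_assoc]

end Grp

section Rng

variable {R : Type*} [Ring R]

/-- The subgroup of units `g` with `(a-1)(g-1) = 0 = (g-1)(a-1)`. -/
def annSub (a : Rˣ) : Subgroup Rˣ where
  carrier := {g | ((a : R) - 1) * ((g : R) - 1) = 0 ∧ ((g : R) - 1) * ((a : R) - 1) = 0}
  mul_mem' := by
    rintro g h ⟨hg1, hg2⟩ ⟨hh1, hh2⟩
    have e1 : ((a : R) - 1) * (g : R) = (a : R) - 1 := by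
      have := hg1; rw [mul_sub, mul_one, sub_eq_zero] at this; exact this
    have e2 : (h : R) * ((a : R) - 1) = (a : R) - 1 := by
      have := hh2; rw [sub_mul, one_mul, sub_eq_zero] at this; exact this
    constructor
    · rw [Units.val_mul, mul_sub, mul_one, ← mul_assoc, e1]
      rw [← mul_one ((a : R) - 1), mul_assoc, one_mul, ← mul_sub]
      exact hh1
    · rw [Units.val_mul, sub_mul, one_mul, mul_assoc, e2]
      have := hg2
      rw [sub_mul, one_mul] at this
      exact this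
  one_mem' := by simp
  inv_mem' := by
    rintro g ⟨hg1, hg2⟩
    have e1 : ((a : R) - 1) * (g : R) = (a : R) - 1 := by
      have := hg1; rw [mul_sub, mul_one, sub_eq_zero] at this; exact this
    have e2 : (g : R) * ((a : R) - 1) = (a : R) - 1 := by
      have := hg2; rw [sub_mul, one_mul, sub_eq_zero] at this; exact this
    constructor
    · have : ((a : R) - 1) * ((g⁻¹ : Rˣ) : R) = (a : R) - 1 := by
        conv_lhs => rw [← e1]
        rw [mul_assoc, Units.mul_inv, mul_one]
      rw [mul_sub, mul_one, this, sub_self]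
    · have : ((g⁻¹ : Rˣ) : R) * ((a : R) - 1) = (a : R) - 1 := by
        conv_lhs => rw [← e2]
        rw [← mul_assoc, Units.inv_mul, one_mul]
      rw [sub_mul, one_mul, this, sub_self]

theorem mem_annSub {a g : Rˣ} :
    g ∈ annSub a ↔ ((a : R) - 1) * ((g : R) - 1) = 0 ∧ ((g : R) - 1) * ((a : R) - 1) = 0 := Iff.rfl

theorem annSub_conj {a d g : Rˣ} (hd : d * a = a * d) (hg : g ∈ annSub a) : d * g * d⁻¹ ∈ annSub a := by
  obtain ⟨h1, h2⟩ := hg
  have hdR : (d : R) * (a : R) = (a : R) * d := by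
    have := congrArg Units.val hd; simpa using this
  have hd2 : (d : R) * ((a : R) - 1) = ((a : R) - 1) * d := by
    rw [mul_sub, sub_mul, hdR, mul_one, one_mul]
  have hdi : ((d⁻¹ : Rˣ) : R) * ((a : R) - 1) = ((a : R) - 1) * ((d⁻¹ : Rˣ) : R) := by
    have h3 : ((d⁻¹ : Rˣ) : R) * ((a : R) - 1) * (d : R) * ((d⁻¹ : Rˣ) : R)
        = ((d⁻¹ : Rˣ) : R) * ((d : R) * ((a : R) - 1)) * ((d⁻¹ : Rˣ) : R) := by
      rw [hd2]; noncomm_ring
    rw [mul_assoc _ (d : R), Units.mul_inv, mul_one, ← mul_assoc, Units.inv_mul, one_mul] at h3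
    exact h3
  have e : (((d * g * d⁻¹ : Rˣ)) : R) - 1 = (d : R) * ((g : R) - 1) * ((d⁻¹ : Rˣ) : R) := by
    simp only [Units.val_mul]
    rw [mul_sub, sub_mul, mul_one, Units.mul_inv]
  constructor
  · rw [e, ← mul_assoc, ← mul_assoc, ← hd2, mul_assoc (d : R), h1, mul_zero, zero_mul]
  · rw [e, mul_assoc, mul_assoc, hdi, ← mul_assoc ((g : R) - 1), h2, zero_mul, mul_zero]

variable {K : Subgroup Rˣ} {a : Rˣ} {N : ℕ}

/-- **The basic relation.** -/
theorem dl_mem_annSub (hK : QSL K) (hc : Hc a K N) (haN : a ^ N = 1) (hN : 0 < N) {q : Rˣ}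
    (hqa : q * a = a * q) (hqn : ∀ h ∈ K, q * h * q⁻¹ ∈ K) (hqc : ∃ h ∈ K, q * h * q⁻¹ ≠ h)
    (hq : q ∈ annSub a) {x : Rˣ} (hx : x ∈ K) : dl a x N ∈ annSub a := by
  set D : Subgroup Rˣ := ((annSub a).comap (dlHom hc)).map K.subtype with hD
  have hle : K ≤ D := by
    apply hK.le_of_comm hqn hqc
    intro h hh
    have hm : q * h * q⁻¹ * h⁻¹ ∈ K := K.mul_mem (hqn h hh) (K.inv_mem hh)
    refine ⟨⟨_, hm⟩, ?_, rfl⟩
    show dl a (q * h * q⁻¹ * h⁻¹) N ∈ annSub a
    rw [dl_mul hc (hqn h hh) (K.inv_mem hh) le_rfl, ← conj_dl hqa]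
    have hinv : dl a h⁻¹ N = (dl a h N)⁻¹ := by
      have h1 := dl_mul hc hh (K.inv_mem hh) (le_refl N)
      have h2 : dl a (h * h⁻¹) N = 1 := by
        rw [mul_inv_cancel]
        exact (dlHom hc).map_one
      rw [h2] at h1
      exact (eq_inv_of_mul_eq_one_right h1.symm)
    rw [hinv]
    have hd : dl a h N * a = a * dl a h N := by
      have h1 := comm_dl hc haN hN hh
      rw [mul_inv_eq_iff_eq_mul] at h1
      exact h1.symm
    have e : q * dl a h N * q⁻¹ * (dl a h N)⁻¹ = q * (dl a h N * q⁻¹ * (dl a h N)⁻¹) := by group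
    rw [e]
    exact (annSub a).mul_mem hq (annSub_conj hd ((annSub a).inv_mem hq))
  obtain ⟨y, hy, hyx⟩ := hle hx
  have : y.1 = x := hyx
  rw [← this]
  exact hy

/-- On the image of `d - 1`, all conjugates of `x` agree with `x`. -/
theorem cj_mul_tau (hc : Hc a K N) {x : Rˣ} (hx : x ∈ K) (hd : dl a x N ∈ annSub a) {i : ℕ}
    (hi : i < N) : ((cj a i x : Rˣ) : R) * (((dl a x N : Rˣ) : R) - 1) = (x : R) * (((dl a x N : Rˣ) : R) - 1) := by
  set d := dl a x N with hdd
  obtain ⟨h1, h2⟩ := hd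
  have ea : (a : R) * ((d : R) - 1) = (d : R) - 1 := by
    have := h1; rw [sub_mul, one_mul, sub_eq_zero] at this; exact this
  have eai : ((a⁻¹ : Rˣ) : R) * ((d : R) - 1) = (d : R) - 1 := by
    conv_lhs => rw [← ea]
    rw [← mul_assoc, Units.inv_mul, one_mul]
  induction i with
  | zero => rw [cj_zero]
  | succ i ih =>
    have h3 := ih (by omega)
    have hcomm := commute_cj_dl_self hc (i := i) (n := N) (by omega) le_rfl hx
    have hcommR : ((cj a i x : Rˣ) : R) * (d : R) = (d : R) * ((cj a i x : Rˣ) : R) := by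
      have := congrArg Units.val hcomm
      simpa using this
    have hcomm2 : ((cj a i x : Rˣ) : R) * ((d : R) - 1) = ((d : R) - 1) * ((cj a i x : Rˣ) : R) := by
      rw [mul_sub, sub_mul, hcommR, mul_one, one_mul]
    rw [cj_succ]
    simp only [Units.val_mul]
    calc (a : R) * ((cj a i x : Rˣ) : R) * ((a⁻¹ : Rˣ) : R) * ((d : R) - 1)
        = (a : R) * ((cj a i x : Rˣ) : R) * (((a⁻¹ : Rˣ) : R) * ((d : R) - 1)) := by
          rw [mul_assoc]
      _ = (a : R) * (((cj a i x : Rˣ) : R) * ((d : R) - 1)) := by rw [eai, mul_assoc]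
      _ = (a : R) * (((d : R) - 1) * ((cj a i x : Rˣ) : R)) := by rw [hcomm2]
      _ = ((d : R) - 1) * ((cj a i x : Rˣ) : R) := by rw [← mul_assoc, ea]
      _ = ((cj a i x : Rˣ) : R) * ((d : R) - 1) := hcomm2.symm
      _ = _ := h3

end Rng

end Cfsg.Agent.Lib.BestOffOp
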