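/-
The odd characteristic contradictions for the P(G,V)-theorem.
-/
import Mathlib
import Cfsg.Agent.Lib.BestOffOp

set_option autoImplicit false

namespace Cfsg.Agent.Lib.BestOffOdd

open Cfsg.Agent.Lib.BestOffQ Cfsg.Agent.Lib.BestOffOp

variable {R : Type*} [Ring R] {K : Subgroup Rˣ}

theorem lemmaA (hK : QSL K) {x : Rˣ} (hx : x ∈ K) (hnc : ∃ y ∈ K, x * y ≠ y * x) (c : R)
    (hcK : ∀ g ∈ K, c * (g : R) = (g : R) * c) (ρ : Rˣ)
    (h : ∀ h₀ ∈ K, c * (((h₀ * x * h₀⁻¹ * ρ : Rˣ) : R) - 1) = 0) :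
    ∀ g ∈ K, c * ((g : R) - 1) = 0 := by
  have h1 : ∀ h₀ ∈ K, c * (((h₀ * x * h₀⁻¹ : Rˣ) : R) - (x : R)) = 0 := by
    intro h₀ hh₀
    have e1 := h h₀ hh₀
    have e2 := h 1 K.one_mem
    have e3 : ((1 * x * 1⁻¹ * ρ : Rˣ) : R) = (x : R) * (ρ : R) := by simp
    rw [e3] at e2
    have e4 : c * (((h₀ * x * h₀⁻¹ : Rˣ) : R) - (x : R)) * (ρ : R) = 0 := by
      have e5 : c * (((h₀ * x * h₀⁻¹ : Rˣ) : R) - (x : R)) * (ρ : R)
          = c * (((h₀ * x * h₀⁻¹ * ρ : Rˣ) : R) - 1) - c * ((x : R) * (ρ : R) - 1) := by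
        simp only [Units.val_mul]
        noncomm_ring
      rw [e5, e1, e2, sub_zero]
    have e6 := congrArg (· * ((ρ⁻¹ : Rˣ) : R)) e4
    simpa [mul_assoc] using e6
  set D : Subgroup Rˣ :=
    { carrier := {g | g ∈ K ∧ c * ((g : R) - 1) = 0}
      mul_mem' := by
        rintro a b ⟨ha, ha'⟩ ⟨hb, hb'⟩
        refine ⟨K.mul_mem ha hb, ?_⟩
        have e : c * (((a * b : Rˣ) : R) - 1) = (a : R) * (c * ((b : R) - 1)) + c * ((a : R) - 1) := by
          rw [Units.val_mul, ← mul_assoc, ← hcK a ha]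
          noncomm_ring
        rw [e, ha', hb', mul_zero, add_zero]
      one_mem' := ⟨K.one_mem, by simp⟩
      inv_mem' := by
        rintro a ⟨ha, ha'⟩
        refine ⟨K.inv_mem ha, ?_⟩
        have e : c * (((a⁻¹ : Rˣ) : R) - 1) = -(((a⁻¹ : Rˣ) : R) * (c * ((a : R) - 1))) := by
          have e1 : ((a⁻¹ : Rˣ) : R) * ((a : R) - 1) = 1 - ((a⁻¹ : Rˣ) : R) := by
            rw [mul_sub, Units.inv_mul, mul_one]
          rw [← mul_assoc, ← hcK _ (K.inv_mem ha), mul_assoc, e1]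
          noncomm_ring
        rw [e, ha', mul_zero, neg_zero] } with hD
  have hle : K ≤ D := by
    obtain ⟨y, hy, hxy⟩ := hnc
    apply hK.le_of_comm (q := x) (fun h hh => K.mul_mem (K.mul_mem hx hh) (K.inv_mem hx))
    · refine ⟨y, hy, fun he => hxy ?_⟩
      rw [mul_inv_eq_iff_eq_mul] at he
      exact he
    · intro h hh
      have hz : h * x * h⁻¹ * x⁻¹ ∈ D := by
        refine ⟨K.mul_mem (K.mul_mem (K.mul_mem hh hx) (K.inv_mem hh)) (K.inv_mem hx), ?_⟩
        have e : c * (((h * x * h⁻¹ * x⁻¹ : Rˣ) : R) - 1)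
            = c * (((h * x * h⁻¹ : Rˣ) : R) - (x : R)) * ((x⁻¹ : Rˣ) : R) := by
          rw [mul_assoc c, sub_mul, Units.mul_inv, Units.val_mul]
        rw [e, h1 h hh, zero_mul]
      have := D.inv_mem hz
      have e : (h * x * h⁻¹ * x⁻¹)⁻¹ = x * h * x⁻¹ * h⁻¹ := by group
      rwa [e] at this
  intro g hg
  exact (hle hg).2

theorem lemmaA' (hK : QSL K) {x : Rˣ} (hx : x ∈ K) (hnc : ∃ y ∈ K, x * y ≠ y * x) (f : K →* Rˣ) (c : R)
    (hcK : ∀ g : K, (f g : R) * c = c * (f g : R))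
    (h : ∀ h₀ : K, ((f (h₀ * ⟨x, hx⟩ * h₀⁻¹) : R) - (f ⟨x, hx⟩ : R)) * c = 0) :
    ∀ g : K, ((f g : R) - 1) * c = 0 := by
  set D₀ : Subgroup K :=
    { carrier := {g | ((f g : R) - 1) * c = 0}
      mul_mem' := by
        intro a b ha hb
        have ha' : ((f a : R) - 1) * c = 0 := ha
        have hb' : ((f b : R) - 1) * c = 0 := hb
        show ((f (a * b) : R) - 1) * c = 0
        have e : ((f (a * b) : R) - 1) * c = (f a : R) * (((f b : R) - 1) * c) + ((f a : R) - 1) * c := by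
          rw [map_mul, Units.val_mul]; noncomm_ring
        rw [e, ha', hb', mul_zero, add_zero]
      one_mem' := by
        show ((f 1 : R) - 1) * c = 0
        simp
      inv_mem' := by
        intro a ha
        have ha' : ((f a : R) - 1) * c = 0 := ha
        show ((f a⁻¹ : R) - 1) * c = 0
        have e : ((f a⁻¹ : R) - 1) * c = -((f a⁻¹ : R) * (((f a : R) - 1) * c)) := by
          rw [← mul_assoc, mul_sub, mul_one, ← Units.val_mul, ← map_mul, inv_mul_cancel, map_one,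
            Units.val_one, sub_mul, sub_mul, one_mul]
          abel
        rw [e, ha', mul_zero, neg_zero] } with hD₀
  set D : Subgroup Rˣ := D₀.map K.subtype with hD
  have hle : K ≤ D := by
    obtain ⟨y, hy, hxy⟩ := hnc
    apply hK.le_of_comm (q := x) (fun h hh => K.mul_mem (K.mul_mem hx hh) (K.inv_mem hx))
    · refine ⟨y, hy, fun he => hxy ?_⟩
      rw [mul_inv_eq_iff_eq_mul] at he
      exact he
    · intro w hw
      set hh' : K := ⟨w, hw⟩
      set xx : K := ⟨x, hx⟩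
      have hz : hh' * xx * hh'⁻¹ * xx⁻¹ ∈ D₀ := by
        show ((f (hh' * xx * hh'⁻¹ * xx⁻¹) : R) - 1) * c = 0
        have e : ((f (hh' * xx * hh'⁻¹ * xx⁻¹) : R) - 1) * c
            = ((f (hh' * xx * hh'⁻¹) : R) - (f xx : R)) * c * (f xx⁻¹ : R) := by
          rw [map_mul f (hh' * xx * hh'⁻¹), Units.val_mul, mul_assoc _ c, ← hcK xx⁻¹, ← mul_assoc,
            sub_mul (f (hh' * xx * hh'⁻¹) : R) (f xx : R), ← Units.val_mul (f xx), ← map_mul f xx,
            mul_inv_cancel, map_one, Units.val_one]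
        rw [e, h hh', zero_mul]
      have hz2 := D₀.inv_mem hz
      refine ⟨_, hz2, ?_⟩
      show ((hh' * xx * hh'⁻¹ * xx⁻¹)⁻¹ : K).1 = x * w * x⁻¹ * w⁻¹
      simp [hh', xx, mul_assoc]
  intro g
  obtain ⟨y, hy, hyg⟩ := hle g.2
  have : y = g := Subtype.ext hyg
  rw [← this]
  exact hy

/-- Conjugation identity for units. -/
theorem conj_mul_zero {h s t d : Rˣ} (h0 : ((s : R) - (t : R)) * ((d : R) - 1) = 0) :
    (((h * s * h⁻¹ : Rˣ) : R) - ((h * t * h⁻¹ : Rˣ) : R)) * (((h * d * h⁻¹ : Rˣ) : R) - 1) = 0 := by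
  have hI : ((h⁻¹ : Rˣ) : R) * (h : R) = 1 := Units.inv_mul h
  have hH : (h : R) * ((h⁻¹ : Rˣ) : R) = 1 := Units.mul_inv h
  have e : (((h * s * h⁻¹ : Rˣ) : R) - ((h * t * h⁻¹ : Rˣ) : R)) * (((h * d * h⁻¹ : Rˣ) : R) - 1)
      = (h : R) * (((s : R) - (t : R)) * ((d : R) - 1)) * ((h⁻¹ : Rˣ) : R) := by
    simp only [Units.val_mul]
    have e1 : (h : R) * (s : R) * ((h⁻¹ : Rˣ) : R) - (h : R) * (t : R) * ((h⁻¹ : Rˣ) : R)
        = (h : R) * ((s : R) - (t : R)) * ((h⁻¹ : Rˣ) : R) := by noncomm_ring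
    have e2 : (h : R) * (d : R) * ((h⁻¹ : Rˣ) : R) - 1 = (h : R) * ((d : R) - 1) * ((h⁻¹ : Rˣ) : R) := by
      rw [mul_sub, sub_mul, mul_one, hH]
    rw [e1, e2]
    calc (h : R) * ((s : R) - (t : R)) * ((h⁻¹ : Rˣ) : R) * ((h : R) * ((d : R) - 1) * ((h⁻¹ : Rˣ) : R))
        = (h : R) * ((s : R) - (t : R)) * (((h⁻¹ : Rˣ) : R) * (h : R)) * ((d : R) - 1) * ((h⁻¹ : Rˣ) : R) := by
          noncomm_ring
      _ = _ := by rw [hI, mul_one, mul_assoc (h : R)]
  rw [e, h0, mul_zero, zero_mul]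

variable {a : Rˣ} {N : ℕ}

theorem step1 (hK : QSL K) (hc : Hc a K N) (hann : ∀ x ∈ K, dl a x N ∈ annSub a) {j k : ℕ}
    (hj1 : 1 ≤ j) (hjp : j < N) (hk1 : 1 ≤ k) (hkp : k < N) (hjk : j ≠ k) {x : Rˣ} (hx : x ∈ K)
    (hnc : ∃ y ∈ K, x * y ≠ y * x) {h₁ h₂ g₀ : Rˣ} (hh₁ : h₁ ∈ K) (hh₂ : h₂ ∈ K) (hg₀ : g₀ ∈ K) :
    (((cj a j (h₁ * x * h₁⁻¹) : Rˣ) : R) - ((cj a k (h₂ * x * h₂⁻¹) : Rˣ) : R)) * ((g₀ : R) - 1) = 0 := by
  have hN : 0 < N := by omega
  have hcom0 : ∀ g ∈ K, ∀ i, 1 ≤ i → i < N → ∀ z ∈ K, g * cj a i z = cj a i z * g := by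
    intro g hg i hi hiN z hz
    have := hc 0 hN i hiN (by omega) g hg z hz
    rwa [cj_zero] at this
  obtain ⟨e, he, hde⟩ := dl_split (a := a) (K := K) (N := N) hx (n := N) hN le_rfl
  have he_comm : ∀ g ∈ K, g * e = e * g := by
    intro g hg
    have hle : Subgroup.closure (tailSet a K N) ≤ Subgroup.centralizer {g} := by
      rw [Subgroup.closure_le]
      rintro _ ⟨i, hi, hiN, z, hz, rfl⟩
      rw [SetLike.mem_coe, Subgroup.mem_centralizer_singleton_iff]
      exact (hcom0 g hg i hi hiN z hz).symm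
    have := hle he
    rw [Subgroup.mem_centralizer_singleton_iff] at this
    exact this.symm
  set A := cj a j h₁ with hA
  set B := cj a k h₂ with hB
  set T1 := cj a j x with hT1
  set T2 := cj a k x with hT2
  set Y1 := cj a j (h₁ * x * h₁⁻¹) with hY1
  set Y2 := cj a k (h₂ * x * h₂⁻¹) with hY2
  have hY1e : Y1 = A * T1 * A⁻¹ := by rw [hY1, cj_mul, cj_mul, cj_inv]
  have hY2e : Y2 = B * T2 * B⁻¹ := by rw [hY2, cj_mul, cj_mul, cj_inv]
  have hmemY1 : h₁ * x * h₁⁻¹ ∈ K := K.mul_mem (K.mul_mem hh₁ hx) (K.inv_mem hh₁)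
  have hmemY2 : h₂ * x * h₂⁻¹ ∈ K := K.mul_mem (K.mul_mem hh₂ hx) (K.inv_mem hh₂)
  have hBT1 : B * T1 = T1 * B := hc k hkp j hjp hjk.symm h₂ hh₂ x hx
  have hAT2 : A * T2 = T2 * A := hc j hjp k hkp hjk h₁ hh₁ x hx
  have hAB : A * B = B * A := hc j hjp k hkp hjk h₁ hh₁ h₂ hh₂
  have hu : ∀ g ∈ K, g * (A * B) = (A * B) * g := by
    intro g hg
    rw [← mul_assoc, hcom0 g hg j hj1 hjp h₁ hh₁, mul_assoc, hcom0 g hg k hk1 hkp h₂ hh₂, mul_assoc]
  set ρ := (A * B) * e * (A * B)⁻¹ with hρ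
  have hρc : ∀ g ∈ K, g * ρ = ρ * g := by
    intro g hg
    have h1 := hu g hg
    have h2 : g * (A * B)⁻¹ = (A * B)⁻¹ * g := by
      rw [eq_inv_mul_iff_mul_eq, ← mul_assoc, ← h1, mul_assoc, mul_inv_cancel, mul_one]
    rw [hρ]
    calc g * (A * B * e * (A * B)⁻¹) = (g * (A * B)) * e * (A * B)⁻¹ := by group
      _ = (A * B) * (g * e) * (A * B)⁻¹ := by rw [h1]; group
      _ = (A * B) * e * (g * (A * B)⁻¹) := by rw [he_comm g hg]; group
      _ = _ := by rw [h2]; group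
  -- `c` commutes with `K`
  have hcK : ∀ g ∈ K, ((Y1 : R) - (Y2 : R)) * (g : R) = (g : R) * ((Y1 : R) - (Y2 : R)) := by
    intro g hg
    have h1 := hcom0 g hg j hj1 hjp _ hmemY1
    have h2 := hcom0 g hg k hk1 hkp _ hmemY2
    have h1' : (g : R) * (Y1 : R) = (Y1 : R) * (g : R) := by
      have := congrArg Units.val h1; simpa using this
    have h2' : (g : R) * (Y2 : R) = (Y2 : R) * (g : R) := by
      have := congrArg Units.val h2; simpa using this
    rw [sub_mul, mul_sub, h1', h2']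
  have hbase : ((T1 : R) - (T2 : R)) * (((dl a x N : Rˣ) : R) - 1) = 0 := by
    have h1 := cj_mul_tau hc hx (hann x hx) hjp
    have h2 := cj_mul_tau hc hx (hann x hx) hkp
    rw [sub_mul, h1, h2, sub_self]
  have key : ∀ h₀ ∈ K, ((Y1 : R) - (Y2 : R)) * (((h₀ * x * h₀⁻¹ * ρ : Rˣ) : R) - 1) = 0 := by
    intro h₀ hh₀
    have h1 := conj_mul_zero (h := h₀ * (A * B)) hbase
    have e1 : h₀ * (A * B) * T1 * (h₀ * (A * B))⁻¹ = Y1 := by
      have h3 : h₀ * Y1 = Y1 * h₀ := hcom0 h₀ hh₀ j hj1 hjp _ hmemY1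
      have h4 : h₀ * (A * B) * T1 * (h₀ * (A * B))⁻¹ = h₀ * (A * (B * T1) * B⁻¹ * A⁻¹) * h₀⁻¹ := by group
      rw [h4, hBT1]
      have h5 : A * (T1 * B) * B⁻¹ * A⁻¹ = A * T1 * A⁻¹ := by group
      rw [h5, ← hY1e, h3, mul_inv_cancel_right]
    have e2 : h₀ * (A * B) * T2 * (h₀ * (A * B))⁻¹ = Y2 := by
      have h3 : h₀ * Y2 = Y2 * h₀ := hcom0 h₀ hh₀ k hk1 hkp _ hmemY2
      have h4 : A * Y2 = Y2 * A := hc j hjp k hkp hjk h₁ hh₁ _ hmemY2
      have h6 : h₀ * (A * B) * T2 * (h₀ * (A * B))⁻¹ = h₀ * (A * (B * T2 * B⁻¹) * A⁻¹) * h₀⁻¹ := by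
        group
      rw [h6, ← hY2e, h4, mul_inv_cancel_right, h3, mul_inv_cancel_right]
    have e3 : h₀ * (A * B) * dl a x N * (h₀ * (A * B))⁻¹ = h₀ * x * h₀⁻¹ * ρ := by
      rw [hde]
      have h5 : x * (A * B) = (A * B) * x := hu x hx
      have h6 := hρc h₀ hh₀
      calc h₀ * (A * B) * (x * e) * (h₀ * (A * B))⁻¹
          = h₀ * ((A * B) * x) * e * (A * B)⁻¹ * h₀⁻¹ := by group
        _ = h₀ * (x * (A * B)) * e * (A * B)⁻¹ * h₀⁻¹ := by rw [h5]
        _ = h₀ * x * ρ * h₀⁻¹ := by rw [hρ]; group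
        _ = h₀ * x * (ρ * h₀⁻¹) := by group
        _ = h₀ * x * (h₀⁻¹ * ρ) := by
            have : ρ * h₀⁻¹ = h₀⁻¹ * ρ := by
              rw [eq_inv_mul_iff_mul_eq, ← mul_assoc, h6, mul_assoc, mul_inv_cancel, mul_one]
            rw [this]
        _ = _ := by group
    rw [e1, e2, e3] at h1
    exact h1
  exact lemmaA hK hx hnc _ hcK ρ key g₀ hg₀

/-- `cj` as a homomorphism on `K`. -/
def cjHom (a : Rˣ) (j : ℕ) (K : Subgroup Rˣ) : K →* Rˣ where
  toFun g := cj a j (g : Rˣ)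
  map_one' := cj_one a j
  map_mul' x y := cj_mul a j x y

theorem step2 (hK : QSL K) (hc : Hc a K N) (hann : ∀ x ∈ K, dl a x N ∈ annSub a) {j k : ℕ}
    (hj1 : 1 ≤ j) (hjp : j < N) (hk1 : 1 ≤ k) (hkp : k < N) (hjk : j ≠ k) {g g₀ : Rˣ} (hg : g ∈ K)
    (hg₀ : g₀ ∈ K) : (((cj a j g : Rˣ) : R) - 1) * ((g₀ : R) - 1) = 0 := by
  have hN : 0 < N := by omega
  obtain ⟨x, hx, y, hy, hxy⟩ := hK.noncomm
  have hcom0 : ∀ g ∈ K, ∀ i, 1 ≤ i → i < N → ∀ z ∈ K, g * cj a i z = cj a i z * g := by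
    intro g hg i hi hiN z hz
    have := hc 0 hN i hiN (by omega) g hg z hz
    rwa [cj_zero] at this
  have := lemmaA' hK hx ⟨y, hy, hxy⟩ (cjHom a j K) ((g₀ : R) - 1) (by
    intro w
    have h1 := hcom0 g₀ hg₀ j hj1 hjp w.1 w.2
    have h1' : (g₀ : R) * ((cj a j w.1 : Rˣ) : R) = ((cj a j w.1 : Rˣ) : R) * (g₀ : R) := by
      have := congrArg Units.val h1; simpa using this
    show ((cj a j w.1 : Rˣ) : R) * ((g₀ : R) - 1) = ((g₀ : R) - 1) * ((cj a j w.1 : Rˣ) : R)
    rw [mul_sub, sub_mul, h1', mul_one, one_mul]) (by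
    intro h₀
    have e1 := step1 hK hc hann hj1 hjp hk1 hkp hjk hx ⟨y, hy, hxy⟩ h₀.2 K.one_mem hg₀
    have e2 := step1 hK hc hann hj1 hjp hk1 hkp hjk hx ⟨y, hy, hxy⟩ K.one_mem K.one_mem hg₀
    have e3 : (1 : Rˣ) * x * 1⁻¹ = x := by group
    rw [e3] at e1 e2
    have e4 : (((cj a j (h₀.1 * x * h₀.1⁻¹) : Rˣ) : R) - ((cj a j x : Rˣ) : R)) * ((g₀ : R) - 1) = 0 := by
      rw [sub_mul] at e1 e2 ⊢
      rw [sub_eq_zero] at e1 e2 ⊢
      rw [e1, e2]
    exact e4) ⟨g, hg⟩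
  exact this

theorem inv_sub_mul (g : Rˣ) (w : R) :
    (((g⁻¹ : Rˣ) : R) - 1) * w = -(((g⁻¹ : Rˣ) : R) * (((g : R) - 1) * w)) := by
  rw [← mul_assoc, mul_sub, Units.inv_mul, mul_one, sub_mul, sub_mul, one_mul]
  abel

/-- The cube relation. -/
theorem cube_zero (hK : QSL K) (hc : Hc a K N) (hann : ∀ x ∈ K, dl a x N ∈ annSub a) (hN3 : 3 ≤ N)
    {z : Rˣ} (hz : z ∈ K) : ((z : R) - 1) ^ 3 = 0 := by
  have hstep : ∀ j, 1 ≤ j → j < N → ∀ g ∈ K, ∀ g₀ ∈ K,
      (((cj a j g : Rˣ) : R) - 1) * ((g₀ : R) - 1) = 0 := by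
    intro j hj1 hjN g hg g₀ hg₀
    by_cases h : j = 1
    · exact step2 hK hc hann hj1 hjN (k := 2) (by norm_num) (by omega) (by omega) hg hg₀
    · exact step2 hK hc hann hj1 hjN (k := 1) le_rfl (by omega) h hg hg₀
  obtain ⟨e, he, hde⟩ := dl_split (a := a) (K := K) (N := N) hz (n := N) (by omega) le_rfl
  set w : R := (z : R) - 1 with hw
  let S : Subgroup Rˣ :=
    { carrier := {g | ((g : R) - 1) * w = 0}
      mul_mem' := by
        intro g h hg hh
        have hg' : ((g : R) - 1) * w = 0 := hg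
        have hh' : ((h : R) - 1) * w = 0 := hh
        show (((g * h : Rˣ) : R) - 1) * w = 0
        have e : (((g * h : Rˣ) : R) - 1) * w = (g : R) * (((h : R) - 1) * w) + ((g : R) - 1) * w := by
          rw [Units.val_mul]; noncomm_ring
        rw [e, hg', hh', mul_zero, add_zero]
      one_mem' := by
        show (((1 : Rˣ) : R) - 1) * w = 0
        simp
      inv_mem' := by
        intro g hg
        have hg' : ((g : R) - 1) * w = 0 := hg
        show (((g⁻¹ : Rˣ) : R) - 1) * w = 0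
        rw [inv_sub_mul, hg', mul_zero, neg_zero] }
  have hle : Subgroup.closure (tailSet a K N) ≤ S := by
    rw [Subgroup.closure_le]
    rintro _ ⟨i, hi, hiN, y, hy, rfl⟩
    exact hstep i hi hiN y hy z hz
  have hew : (e : R) * w = w := by
    have h1 : ((e : R) - 1) * w = 0 := hle he
    rwa [sub_mul, one_mul, sub_eq_zero] at h1
  have hd : (((dl a z N : Rˣ) : R) - 1) * w = w * w := by
    rw [hde, Units.val_mul, sub_mul, mul_assoc, hew, one_mul, hw, sub_mul, one_mul]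
  have h1 := cj_mul_tau hc hz (hann z hz) (i := 1) (by omega)
  have h2 := congrArg (· * w) h1
  simp only [mul_assoc, hd] at h2
  have h3 : ((cj a 1 z : Rˣ) : R) * w = w := by
    have := hstep 1 le_rfl (by omega) z hz z hz
    rwa [sub_mul, one_mul, sub_eq_zero] at this
  rw [← mul_assoc, h3] at h2
  have h4 : w ^ 3 = 0 := by
    have e : w ^ 3 = (z : R) * (w * w) - w * w := by
      rw [pow_succ, pow_two, hw]; noncomm_ring
    rw [e, ← h2, sub_self]
  exact h4

/-- The contradiction for odd characteristic. -/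
theorem odd_contra {p : ℕ} [Fact p.Prime] [CharP R p] [Finite K] (hp3 : 3 ≤ p) (hK : QSL K)
    (hc : Hc a K p) (hann : ∀ x ∈ K, dl a x p ∈ annSub a) : False := by
  have hpow : ∀ z ∈ K, z ^ p = 1 := by
    intro z hz
    have h1 := cube_zero hK hc hann hp3 hz
    have h2 : ((z : R) - 1) ^ p = 0 := by
      obtain ⟨m, hm⟩ := Nat.exists_eq_add_of_le hp3
      rw [hm, pow_add, h1, zero_mul]
    rw [sub_pow_char_of_commute (p := p) (Commute.one_right _), one_pow, sub_eq_zero] at h2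
    apply Units.ext
    simpa using h2
  have hpg : IsPGroup p K := by
    intro g
    refine ⟨1, ?_⟩
    apply Subtype.ext
    simpa using hpow g.1 g.2
  have : Group.IsNilpotent K := hpg.isNilpotent
  exact hK.not_isSolvable inferInstance

/-- Equal elements from Frobenius. -/
theorem eq_of_sq_sub {p : ℕ} [Fact p.Prime] [CharP R p] {u v : R} (huv : Commute u v) {f : ℕ}
    (hf : 1 ≤ f) (hu : u ^ (p ^ f) = u) (hv : v ^ (p ^ f) = v) (h : (u - v) * (u - v) = 0) : u = v := by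
  have h1 : (u - v) ^ (p ^ f) = u - v := by
    rw [sub_pow_char_pow_of_commute p f huv, hu, hv]
  have hp2 : 2 ≤ p ^ f := by
    have := (Fact.out : p.Prime).two_le
    calc 2 ≤ p := this
      _ = p ^ 1 := (pow_one p).symm
      _ ≤ p ^ f := Nat.pow_le_pow_right (by omega) hf
  obtain ⟨m, hm⟩ := Nat.exists_eq_add_of_le hp2
  rw [hm, pow_add, pow_two, h, zero_mul] at h1
  exact sub_eq_zero.mp h1.symm

theorem pow_frob {p o : ℕ} (hp0 : 0 < p) (hop : Nat.Coprime p o) {x : R} (hx : x ^ o = 1) :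
    x ^ (p ^ Nat.totient o) = x := by
  have h1 : p ^ Nat.totient o ≡ 1 [MOD o] := Nat.ModEq.pow_totient hop
  have hpos : 1 ≤ p ^ Nat.totient o := Nat.one_le_pow _ _ hp0
  obtain ⟨m, hm⟩ := (Nat.modEq_iff_dvd' hpos).mp h1.symm
  have : p ^ Nat.totient o = o * m + 1 := by omega
  rw [this, pow_succ, pow_mul, hx, one_pow, one_mul]

theorem two_inj {p : ℕ} [CharP R p] (hodd : Odd p) {y : R} (h : y + y = 0) : y = 0 := by
  obtain ⟨m, rfl⟩ := hodd
  have h1 : ((2 * m + 1 : ℕ) : R) = 0 := CharP.cast_eq_zero R _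
  have h2 : y = ((2 * m + 1 : ℕ) : R) * y - (m : R) * (y + y) := by
    push_cast
    noncomm_ring
  rw [h2, h1, h, zero_mul, mul_zero, sub_zero]

/-- The quadratic case, first part. -/
theorem tau_g_tau {p : ℕ} [Fact p.Prime] [CharP R p] (hp3 : 3 ≤ p) (hodd : Odd p)
    (hτ : ((a : R) - 1) * ((a : R) - 1) = 0) (ha : a ^ p = 1) (hc : Hc a K p) {g : Rˣ} (hg : g ∈ K) {o : ℕ}
    (ho : g ^ o = 1) (hop : Nat.Coprime p o) :
    ((a : R) - 1) * (g : R) * ((a : R) - 1) = 0 := by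
  set τ : R := (a : R) - 1 with hτd
  have hai : ((a⁻¹ : Rˣ) : R) = 1 - τ := by
    have h1 : (a : R) * (1 - τ) = 1 := by
      have : (a : R) = 1 + τ := by rw [hτd]; noncomm_ring
      have h2 : (1 + τ) * (1 - τ) = 1 - τ * τ := by noncomm_ring
      rw [this, h2, hτ, sub_zero]
    calc ((a⁻¹ : Rˣ) : R) = ((a⁻¹ : Rˣ) : R) * ((a : R) * (1 - τ)) := by rw [h1, mul_one]
      _ = _ := by rw [← mul_assoc, Units.inv_mul, one_mul]
  have haR : (a : R) = 1 + τ := by rw [hτd]; noncomm_ring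
  have hp1 : a ^ (p - 1) = a⁻¹ := by
    rw [eq_inv_iff_mul_eq_one, ← pow_succ, Nat.sub_add_cancel (by omega), ha]
  set yp : Rˣ := cj a 1 g with hyp
  set ym : Rˣ := cj a (p - 1) g with hym
  have eyp : (yp : R) = (1 + τ) * (g : R) * (1 - τ) := by
    rw [hyp]; simp only [cj, pow_one, Units.val_mul, hai, haR]
  have eym : (ym : R) = (1 - τ) * (g : R) * (1 + τ) := by
    rw [hym]; simp only [cj, hp1, inv_inv, Units.val_mul, hai, haR]
  have c1 : g * yp = yp * g := by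
    have := hc 0 (by omega) 1 (by omega) (by omega) g hg g hg
    rwa [cj_zero] at this
  have c2 : g * ym = ym * g := by
    have := hc 0 (by omega) (p - 1) (by omega) (by omega) g hg g hg
    rwa [cj_zero] at this
  have c3 : yp * ym = ym * yp := hc 1 (by omega) (p - 1) (by omega) (by omega) g hg g hg
  have c1' : Commute (g : R) (yp : R) := by
    have := congrArg Units.val c1; simpa [Commute, SemiconjBy] using this
  have c2' : Commute (g : R) (ym : R) := by
    have := congrArg Units.val c2; simpa [Commute, SemiconjBy] using this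
  have c3' : Commute (yp : R) (ym : R) := by
    have := congrArg Units.val c3; simpa [Commute, SemiconjBy] using this
  have hf : 1 ≤ Nat.totient o := by
    rw [Nat.succ_le_iff, Nat.totient_pos]
    rcases Nat.eq_zero_or_pos o with h | h
    · subst h
      rw [Nat.coprime_zero_right] at hop
      have := (Fact.out : p.Prime).one_lt
      omega
    · exact h
  have fg : ((g : R)) ^ (p ^ Nat.totient o) = g := by
    apply pow_frob (Fact.out : p.Prime).pos hop
    have := congrArg Units.val ho; simpa using this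
  have fyp : ((yp : R)) ^ (p ^ Nat.totient o) = yp := by
    apply pow_frob (Fact.out : p.Prime).pos hop
    have h : yp ^ o = 1 := by
      rw [hyp]; simp only [cj]; rw [conj_pow, ho]; simp
    have := congrArg Units.val h; simpa using this
  have fym : ((ym : R)) ^ (p ^ Nat.totient o) = ym := by
    apply pow_frob (Fact.out : p.Prime).pos hop
    have h : ym ^ o = 1 := by
      rw [hym]; simp only [cj]; rw [conj_pow, ho]; simp
    have := congrArg Units.val h; simpa using this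
  have hE := eq_of_sq_sub (p := p) (u := (yp : R) + (ym : R)) (v := (g : R) + (g : R))
    (by
      apply Commute.add_left
      · exact (c1'.symm).add_right c1'.symm
      · exact (c2'.symm).add_right c2'.symm) hf
    (by rw [add_pow_char_pow_of_commute p _ c3', fyp, fym])
    (by rw [add_pow_char_pow_of_commute p _ (Commute.refl _), fg])
    (by
      have e : ((yp : R) + (ym : R)) - ((g : R) + (g : R)) = -(τ * (g : R) * τ) - τ * (g : R) * τ := by
        rw [eyp, eym]; noncomm_ring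
      rw [e]
      have e2 : (-(τ * (g : R) * τ) - τ * (g : R) * τ) * (-(τ * (g : R) * τ) - τ * (g : R) * τ)
          = (τ * (g : R) * (τ * τ) * (g : R) * τ) + (τ * (g : R) * (τ * τ) * (g : R) * τ)
            + (τ * (g : R) * (τ * τ) * (g : R) * τ) + (τ * (g : R) * (τ * τ) * (g : R) * τ) := by
        noncomm_ring
      rw [e2, hτ]
      simp)
  have e : ((yp : R) + (ym : R)) - ((g : R) + (g : R)) = -(τ * (g : R) * τ) - τ * (g : R) * τ := by
    rw [eyp, eym]; noncomm_ring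
  rw [hE, sub_self] at e
  have e3 : τ * (g : R) * τ + τ * (g : R) * τ = 0 := by
    have h := e.symm
    rw [sub_eq_add_neg, ← neg_add, neg_eq_zero] at h
    exact h
  exact two_inj hodd e3

/-- The quadratic case. -/
theorem quad_comm {p : ℕ} [Fact p.Prime] [CharP R p] (hp3 : 3 ≤ p) (hodd : Odd p)
    (hτ : ((a : R) - 1) * ((a : R) - 1) = 0) (ha : a ^ p = 1) (hc : Hc a K p) {g : Rˣ} (hg : g ∈ K) {o : ℕ}
    (ho : g ^ o = 1) (hop : Nat.Coprime p o) : a * g = g * a := by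
  have t1 := tau_g_tau hp3 hodd hτ ha hc hg ho hop
  have t2 := tau_g_tau (g := g * g) hp3 hodd hτ ha hc (K.mul_mem hg hg)
    (by rw [← pow_two, ← pow_mul, mul_comm, pow_mul, ho, one_pow]) hop
  set τ : R := (a : R) - 1 with hτd
  have hai : ((a⁻¹ : Rˣ) : R) = 1 - τ := by
    have h1 : (a : R) * (1 - τ) = 1 := by
      have : (a : R) = 1 + τ := by rw [hτd]; noncomm_ring
      have h2 : (1 + τ) * (1 - τ) = 1 - τ * τ := by noncomm_ring
      rw [this, h2, hτ, sub_zero]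
    calc ((a⁻¹ : Rˣ) : R) = ((a⁻¹ : Rˣ) : R) * ((a : R) * (1 - τ)) := by rw [h1, mul_one]
      _ = _ := by rw [← mul_assoc, Units.inv_mul, one_mul]
  have haR : (a : R) = 1 + τ := by rw [hτd]; noncomm_ring
  have hp1 : a ^ (p - 1) = a⁻¹ := by
    rw [eq_inv_iff_mul_eq_one, ← pow_succ, Nat.sub_add_cancel (by omega), ha]
  set yp : Rˣ := cj a 1 g with hyp
  set ym : Rˣ := cj a (p - 1) g with hym
  have eyp : (yp : R) = (1 + τ) * (g : R) * (1 - τ) := by
    rw [hyp]; simp only [cj, pow_one, Units.val_mul, hai, haR]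
  have eym : (ym : R) = (1 - τ) * (g : R) * (1 + τ) := by
    rw [hym]; simp only [cj, hp1, inv_inv, Units.val_mul, hai, haR]
  have c3 : yp * ym = ym * yp := hc 1 (by omega) (p - 1) (by omega) (by omega) g hg g hg
  have c3' : Commute (yp : R) (ym : R) := by
    have := congrArg Units.val c3; simpa [Commute, SemiconjBy] using this
  have hf : 1 ≤ Nat.totient o := by
    rw [Nat.succ_le_iff, Nat.totient_pos]
    rcases Nat.eq_zero_or_pos o with h | h
    · subst h
      rw [Nat.coprime_zero_right] at hop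
      have := (Fact.out : p.Prime).one_lt
      omega
    · exact h
  have fyp : ((yp : R)) ^ (p ^ Nat.totient o) = yp := by
    apply pow_frob (Fact.out : p.Prime).pos hop
    have h : yp ^ o = 1 := by
      rw [hyp]; simp only [cj]; rw [conj_pow, ho]; simp
    have := congrArg Units.val h; simpa using this
  have fym : ((ym : R)) ^ (p ^ Nat.totient o) = ym := by
    apply pow_frob (Fact.out : p.Prime).pos hop
    have h : ym ^ o = 1 := by
      rw [hym]; simp only [cj]; rw [conj_pow, ho]; simp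
    have := congrArg Units.val h; simpa using this
  have t2' : τ * ((g : R) * (g : R)) * τ = 0 := by
    have := t2; rwa [Units.val_mul] at this
  have hE := eq_of_sq_sub (p := p) c3' hf fyp fym (by
    have e : (yp : R) - (ym : R) = (τ * (g : R) - (g : R) * τ) + (τ * (g : R) - (g : R) * τ) := by
      rw [eyp, eym]; noncomm_ring
    rw [e]
    have e2 : (τ * (g : R) - (g : R) * τ) * (τ * (g : R) - (g : R) * τ) = 0 := by
      have : (τ * (g : R) - (g : R) * τ) * (τ * (g : R) - (g : R) * τ)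
          = (τ * (g : R) * τ) * (g : R) - τ * ((g : R) * (g : R)) * τ - (g : R) * (τ * τ) * (g : R)
            + (g : R) * (τ * (g : R) * τ) := by noncomm_ring
      rw [this, t1, t2', hτ]
      simp
    simp only [add_mul, mul_add, e2, add_zero])
  have e : (yp : R) - (ym : R) = (τ * (g : R) - (g : R) * τ) + (τ * (g : R) - (g : R) * τ) := by
    rw [eyp, eym]; noncomm_ring
  rw [hE, sub_self] at e
  have e4 := two_inj hodd e.symm
  apply Units.ext
  simp only [Units.val_mul]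
  rw [haR]
  have e5 : τ * (g : R) = (g : R) * τ := sub_eq_zero.mp e4
  rw [add_mul, mul_add, e5, one_mul, mul_one]

end Cfsg.Agent.Lib.BestOffOdd
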