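/-
Restriction to the fixed points of a subgroup of a best offender, for the P(G,V)-theorem.
-/
import Mathlib
import Cfsg.Agent.Lib.BestOffT
import Cfsg.Agent.Lib.BestOffOdd

set_option autoImplicit false
set_option linter.unusedSectionVars false
set_option linter.style.haveILetI false

namespace Cfsg.Agent.Lib.BestOffR

open Cfsg.Agent.Lib.FFMod Cfsg.Agent.Lib.BestOffQ Cfsg.Agent.Lib.BestOffT

universe u

/-- Counting a preimage. -/
theorem card_comap_le_range {H H' : Type*} [Group H] [Group H'] [Finite H] (f : H →* H') (B : Subgroup H')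
    (hB : B ≤ f.range) : Nat.card (B.comap f) = Nat.card B * Nat.card f.ker := by
  set K₁ := B.comap f with hK₁
  set g : K₁ →* H' := f.comp K₁.subtype with hg
  have hr : g.range = B := by
    apply le_antisymm
    · rintro _ ⟨y, rfl⟩
      exact y.2
    · intro b hb
      obtain ⟨y, rfl⟩ := hB hb
      exact ⟨⟨y, hb⟩, rfl⟩
  have hk : Nat.card g.ker = Nat.card f.ker := by
    have h1 : g.ker.map K₁.subtype = f.ker := by
      apply le_antisymm
      · rintro _ ⟨y, hy, rfl⟩
        exact hy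
      · intro y hy
        have hy' : f y = 1 := hy
        have hyK : y ∈ K₁ := by
          show f y ∈ B
          rw [hy']
          exact B.one_mem
        exact ⟨⟨y, hyK⟩, hy, rfl⟩
    rw [← h1, Subgroup.card_map_of_injective K₁.subtype_injective]
  have h2 := Subgroup.card_mul_index g.ker
  rw [Subgroup.index_ker, hr, hk] at h2
  rw [← h2, mul_comm]

/-- A conjugation preserving a finite subgroup is onto. -/
theorem conj_surj {X : Type*} [Group X] {K : Subgroup X} [Finite K] {b : X} (h : ∀ x ∈ K, b * x * b⁻¹ ∈ K) :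
    ∀ u ∈ K, ∃ x ∈ K, b * x * b⁻¹ = u := by
  let f : K → K := fun x => ⟨b * x.1 * b⁻¹, h x.1 x.2⟩
  have hinj : Function.Injective f := by
    intro x y hxy
    have h1 : b * x.1 * b⁻¹ = b * y.1 * b⁻¹ := congrArg Subtype.val hxy
    apply Subtype.ext
    simpa using h1
  have hsurj := Finite.surjective_of_injective hinj
  intro u hu
  obtain ⟨x, hx⟩ := hsurj ⟨u, hu⟩
  exact ⟨x.1, x.2, congrArg Subtype.val hx⟩

/-- Commuting conjugates with a self-normalizing conjugation give an abelian group. -/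
theorem comm_of_conj_self {X : Type*} [Group X] {K : Subgroup X} [Finite K] {b : X}
    (h : ∀ x ∈ K, b * x * b⁻¹ ∈ K) (hc : ∀ x ∈ K, ∀ y ∈ K, (b * x * b⁻¹) * y = y * (b * x * b⁻¹)) :
    ∀ u ∈ K, ∀ v ∈ K, u * v = v * u := by
  intro u hu v hv
  obtain ⟨x, hx, rfl⟩ := conj_surj h u hu
  exact hc x hx v hv

section

variable {p : ℕ} [hp : Fact p.Prime] {E : Type u} [AddCommGroup E] [Module (ZMod p) E]

/-- The group of linear automorphisms. -/
abbrev UE (p : ℕ) (E : Type u) [AddCommGroup E] [Module (ZMod p) E] := (Module.End (ZMod p) E)ˣ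

/-- The tautological representation. -/
abbrev rh (p : ℕ) (E : Type u) [AddCommGroup E] [Module (ZMod p) E] : UE p E →* Module.End (ZMod p) E :=
  Units.coeHom _

instance finUE [Finite E] : Finite (UE p E) := by
  haveI : Finite (Module.End (ZMod p) E) :=
    Finite.of_injective (fun f : Module.End (ZMod p) E => (f : E → E)) DFunLike.coe_injective
  infer_instance

/-- The configuration studied. -/
structure Setup (A K : Subgroup (UE p E)) : Prop where
  bo : IsBO (p := p) (rh p E) A
  qsl : QSL K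
  hc : ∀ b ∈ A, (∀ x ∈ K, b * x * b⁻¹ ∈ K) ∨ ∀ x ∈ K, ∀ y ∈ K, (b * x * b⁻¹) * y = y * (b * x * b⁻¹)

theorem cent_maps (N₀ : Subgroup (UE p E)) {g : UE p E} (hg : g ∈ Subgroup.centralizer (N₀ : Set (UE p E)))
    {v : E} (hv : v ∈ fixS (rh p E) N₀) : (g : Module.End (ZMod p) E) v ∈ fixS (rh p E) N₀ := by
  intro c hc
  have h1 : c * g = g * c := Subgroup.mem_centralizer_iff.mp hg c hc
  have h2 : rh p E c v = v := hv c hc
  have h3 : (rh p E c * rh p E g) v = (rh p E g * rh p E c) v := by
    rw [← map_mul, ← map_mul, h1]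
  simp only [Module.End.mul_apply] at h3
  rw [h2] at h3
  exact h3

/-- Restriction to the fixed points. -/
noncomputable def resHom (N₀ : Subgroup (UE p E)) :
    Subgroup.centralizer (N₀ : Set (UE p E)) →* UE p (fixS (rh p E) N₀) where
  toFun g :=
    { val := LinearMap.restrict (g.1 : Module.End (ZMod p) E) (fun _ hv => cent_maps N₀ g.2 hv)
      inv := LinearMap.restrict ((g.1⁻¹ : UE p E) : Module.End (ZMod p) E)
        (fun _ hv => cent_maps N₀ (Subgroup.inv_mem _ g.2) hv)
      val_inv := by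
        ext v
        have h : ((g.1 * g.1⁻¹ : UE p E) : Module.End (ZMod p) E) (v : E) = v := by simp
        exact h
      inv_val := by
        ext v
        have h : ((g.1⁻¹ * g.1 : UE p E) : Module.End (ZMod p) E) (v : E) = v := by simp
        exact h }
  map_one' := by
    ext v
    rfl
  map_mul' x y := by
    ext v
    rfl

theorem resHom_apply (N₀ : Subgroup (UE p E)) (g : Subgroup.centralizer (N₀ : Set (UE p E)))
    (v : fixS (rh p E) N₀) :
    (((resHom N₀ g : UE p (fixS (rh p E) N₀)) : Module.End (ZMod p) (fixS (rh p E) N₀)) v : E)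
      = (g.1 : Module.End (ZMod p) E) (v : E) := rfl

variable [Finite E]

/-- The function `fF` under restriction. -/
theorem fF_restrict {A N₀ : Subgroup (UE p E)} (hAS : A ≤ Subgroup.centralizer (N₀ : Set (UE p E)))
    (hN₀ : N₀ ≤ A) (f : A →* UE p (fixS (rh p E) N₀)) (hf : f = (resHom N₀).comp (Subgroup.inclusion hAS))
    (B' : Subgroup (UE p (fixS (rh p E) N₀))) (hB' : B' ≤ f.range) :
    fF (rh p E) ((B'.comap f).map A.subtype) = fF (rh p (fixS (rh p E) N₀)) B' * Nat.card f.ker := by
  unfold fF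
  rw [Subgroup.card_map_of_injective A.subtype_injective, card_comap_le_range f B' hB']
  have hker : ∀ c (hc : c ∈ N₀), f ⟨c, hN₀ hc⟩ = 1 := by
    intro c hc
    rw [hf]
    ext v
    show (c : Module.End (ZMod p) E) (v : E) = v
    exact v.2 c hc
  have hact : ∀ (c : A) (v : fixS (rh p E) N₀),
      (((f c : UE p (fixS (rh p E) N₀)) : Module.End (ZMod p) (fixS (rh p E) N₀)) v : E)
      = (c.1 : Module.End (ZMod p) E) (v : E) := by
    intro c v
    rw [hf]
    rfl
  have hc : Nat.card (fixS (rh p E) ((B'.comap f).map A.subtype))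
      = Nat.card (fixS (rh p (fixS (rh p E) N₀)) B') := by
    apply Nat.card_congr
    exact
      { toFun := fun v => ⟨⟨v.1, fun c hc => v.2 c (by
            refine ⟨⟨c, hN₀ hc⟩, ?_, rfl⟩
            show f ⟨c, hN₀ hc⟩ ∈ B'
            rw [hker c hc]
            exact B'.one_mem)⟩, fun b' hb' => by
            obtain ⟨c, rfl⟩ := hB' hb'
            apply Subtype.ext
            show (((f c : UE p (fixS (rh p E) N₀)) : Module.End (ZMod p) (fixS (rh p E) N₀)) _ : E) = _
            rw [hact]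
            exact v.2 c.1 ⟨c, hb', rfl⟩⟩
        invFun := fun v' => ⟨v'.1.1, by
            rintro _ ⟨c, hc, rfl⟩
            have h1 := v'.2 (f c) hc
            have h2 := congrArg Subtype.val h1
            rw [show (((rh p (fixS (rh p E) N₀)) (f c)) v'.1 : E) =
              (c.1 : Module.End (ZMod p) E) (v'.1 : E) from hact c v'.1] at h2
            exact h2⟩
        left_inv := fun v => rfl
        right_inv := fun v => rfl }
  rw [hc]
  ring

variable (IH : ∀ (E' : Type u) [AddCommGroup E'] [Module (ZMod p) E'] [Finite E'], Nat.card E' < Nat.card E →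
      ∀ A' K' : Subgroup (UE p E'), Setup (p := p) A' K' → ∀ b ∈ A', ∀ x ∈ K', b * x * b⁻¹ ∈ K')

include IH in
/-- **The restriction step.** -/
theorem restrict_step {A K N₀ : Subgroup (UE p E)} (hS : Setup (p := p) A K) (hN₀ : N₀ ≤ A)
    (hne : N₀ ≠ ⊥) (hcomm : ∀ c ∈ N₀, ∀ x ∈ K, c * x = x * c) {a x : UE p E} (ha : a ∈ A) (hx : x ∈ K)
    (hmove : a * x * a⁻¹ ∉ K) : False := by
  classical
  have hAS : A ≤ Subgroup.centralizer (N₀ : Set (UE p E)) := by
    intro c hc
    rw [Subgroup.mem_centralizer_iff]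
    intro h hh
    exact hS.bo.comm h (hN₀ hh) c hc
  have hKS : K ≤ Subgroup.centralizer (N₀ : Set (UE p E)) := by
    intro c hc
    rw [Subgroup.mem_centralizer_iff]
    intro h hh
    exact hcomm h hh c hc
  set fA : A →* UE p (fixS (rh p E) N₀) := (resHom N₀).comp (Subgroup.inclusion hAS) with hfA
  set fK : K →* UE p (fixS (rh p E) N₀) := (resHom N₀).comp (Subgroup.inclusion hKS) with hfK
  have hPG : IsPGroup p N₀ := by
    rintro ⟨c, hc⟩
    refine ⟨1, ?_⟩
    apply Subtype.ext
    simpa using hS.bo.pow c (hN₀ hc)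
  -- `K` acts nontrivially
  have hnt : ∃ x : K, fK x ≠ 1 := by
    obtain ⟨ℓ, hℓ, hℓp, -, x₀, hx₀, k, hord, y, hy, hne⟩ := hS.qsl.exists_noncentral p p hp.out hp.out
    refine ⟨⟨x₀, hx₀⟩, fun h1 => ?_⟩
    have hmC : (orderOf x₀).Coprime p := by
      rw [hord]
      exact Nat.Coprime.pow_left _ ((Nat.coprime_primes hℓ hp.out).mpr hℓp)
    have h2 := fix_trick (rh p E) N₀ hPG hmC (pow_orderOf_eq_one x₀)
      (fun c hc => hcomm c hc x₀ hx₀) (fun w hw => by
        have h3 := congrArg (fun g : UE p (fixS (rh p E) N₀) =>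
          ((g : Module.End (ZMod p) (fixS (rh p E) N₀)) ⟨w, hw⟩ : fixS (rh p E) N₀)) h1
        have h4 := congrArg Subtype.val h3
        exact h4)
    have h5 : x₀ = 1 := Units.ext h2
    apply hne
    rw [h5, one_mul, mul_one]
  have hQ' : QSL fK.range := hS.qsl.range fK hnt
  -- the module is smaller
  have hlt : Nat.card (fixS (rh p E) N₀) < Nat.card E := by
    obtain ⟨c, hc, hc1⟩ : ∃ c ∈ N₀, c ≠ 1 := by
      obtain ⟨c, hc⟩ := Subgroup.ne_bot_iff_exists_ne_one.mp hne
      exact ⟨c.1, c.2, fun h => hc (Subtype.ext h)⟩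
    have h1 : (rh p E c) ≠ 1 := fun h => hc1 (Units.ext h)
    have hlt : fixS (rh p E) N₀ < ⊤ := by
      rw [lt_top_iff_ne_top]
      intro h
      apply h1
      ext v
      have : v ∈ fixS (rh p E) N₀ := h ▸ Submodule.mem_top
      exact this c hc
    have h2 : (fixS (rh p E) N₀ : Set E).ncard < (Set.univ : Set E).ncard := by
      apply Set.ncard_lt_ncard _ (Set.toFinite _)
      rw [Set.ssubset_univ_iff]
      intro h
      apply hlt.ne
      apply SetLike.coe_injective
      rw [h]
      rfl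
    rw [Set.ncard_univ, ← Nat.card_coe_set_eq] at h2
    exact h2
  -- the best offender property
  have hBO : IsBO (p := p) (rh p (fixS (rh p E) N₀)) fA.range := by
    refine ⟨?_, ?_, ?_⟩
    · intro B' hB'
      have h1 := fF_restrict hAS hN₀ fA hfA B' hB'
      have h2 := fF_restrict hAS hN₀ fA hfA fA.range le_rfl
      have h3 : (fA.range.comap fA).map A.subtype = A := by
        have h6 : fA.range.comap fA = ⊤ := by
          ext c
          simp
        rw [h6, ← MonoidHom.range_eq_map, Subgroup.range_subtype]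
      rw [h3] at h2
      have h4 : (B'.comap fA).map A.subtype ≤ A := Subgroup.map_subtype_le _
      have h5 := hS.bo.le _ h4
      rw [h1, h2] at h5
      exact Nat.le_of_mul_le_mul_right h5 Nat.card_pos
    · rintro _ ⟨c, rfl⟩ _ ⟨d, rfl⟩
      rw [← map_mul, ← map_mul]
      congr 1
      apply Subtype.ext
      exact hS.bo.comm c.1 c.2 d.1 d.2
    · rintro _ ⟨c, rfl⟩
      rw [← map_pow]
      have : c ^ p = 1 := by
        apply Subtype.ext
        simpa using hS.bo.pow c.1 c.2
      rw [this, map_one]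
  have hres : ∀ (c : A) (y : K), fA c * fK y * (fA c)⁻¹ = (resHom N₀) (Subgroup.inclusion hAS c) * (resHom N₀) (Subgroup.inclusion hKS y) * ((resHom N₀) (Subgroup.inclusion hAS c))⁻¹ := fun c y => rfl
  -- conjugation under restriction
  have hconj : ∀ (c : A) (y : K) (hm : c.1 * y.1 * c.1⁻¹ ∈ K),
      fA c * fK y * (fA c)⁻¹ = fK ⟨c.1 * y.1 * c.1⁻¹, hm⟩ := by
    intro c y hm
    rw [hres, ← map_inv, ← map_mul, ← map_mul]
    rfl
  have hconj2 : ∀ (c : A) (y : K), fA c * fK y * (fA c)⁻¹ =
      (resHom N₀) ⟨c.1 * y.1 * c.1⁻¹, (Subgroup.centralizer (N₀ : Set (UE p E))).mul_mem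
        ((Subgroup.centralizer (N₀ : Set (UE p E))).mul_mem (hAS c.2) (hKS y.2))
        ((Subgroup.centralizer (N₀ : Set (UE p E))).inv_mem (hAS c.2))⟩ := by
    intro c y
    rw [hres, ← map_inv, ← map_mul, ← map_mul]
    rfl
  have hSetup : Setup (p := p) fA.range fK.range := by
    refine ⟨hBO, hQ', ?_⟩
    rintro _ ⟨c, rfl⟩
    rcases hS.hc c.1 c.2 with h | h
    · left
      rintro _ ⟨y, rfl⟩
      rw [hconj c y (h y.1 y.2)]
      exact ⟨_, rfl⟩
    · right
      rintro _ ⟨y, rfl⟩ _ ⟨z, rfl⟩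
      rw [hconj2 c y]
      have h1 := h y.1 y.2 z.1 z.2
      have h2 : fK z = (resHom N₀) ⟨z.1, hKS z.2⟩ := rfl
      rw [h2, ← map_mul, ← map_mul]
      congr 1
      exact Subtype.ext h1
  have hnorm := IH (fixS (rh p E) N₀) hlt _ _ hSetup (fA ⟨a, ha⟩) ⟨_, rfl⟩
  have hcomm2 : ∀ u ∈ fK.range, ∀ v ∈ fK.range, u * v = v * u := by
    apply comm_of_conj_self (b := fA ⟨a, ha⟩) hnorm
    rintro _ ⟨y, rfl⟩ _ ⟨z, rfl⟩
    rcases hS.hc a ha with h | h
    · exact absurd (h x hx) hmove
    · rw [hconj2 ⟨a, ha⟩ y]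
      have h1 := h y.1 y.2 z.1 z.2
      have h2 : fK z = (resHom N₀) ⟨z.1, hKS z.2⟩ := rfl
      rw [h2, ← map_mul, ← map_mul]
      congr 1
      exact Subtype.ext h1
  obtain ⟨u, hu, v, hv, huv⟩ := hQ'.noncomm
  exact huv (hcomm2 u hu v hv)

include IH in
/-- Nothing nontrivial in a best offender centralizes `K` while some element moves `K`. -/
theorem no_centralizer {A K : Subgroup (UE p E)} (hS : Setup (p := p) A K) {a x : UE p E} (ha : a ∈ A)
    (hx : x ∈ K) (hmove : a * x * a⁻¹ ∉ K) {c : UE p E} (hc : c ∈ A)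
    (hcK : ∀ y ∈ K, c * y = y * c) : c = 1 := by
  by_contra hc1
  refine restrict_step IH hS (N₀ := Subgroup.zpowers c) ?_ ?_ ?_ ha hx hmove
  · rwa [Subgroup.zpowers_le]
  · intro h
    rw [Subgroup.zpowers_eq_bot] at h
    exact hc1 h
  · intro d hd y hy
    obtain ⟨n, rfl⟩ := Subgroup.mem_zpowers_iff.mp hd
    have h1 : Commute c y := hcK y hy
    exact (h1.zpow_left n).eq

end

end Cfsg.Agent.Lib.BestOffR
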