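/-
The P(G,V)-theorem: common steps and the odd characteristic.
-/
import Mathlib
import Cfsg.Agent.Lib.BestOffR

set_option autoImplicit false
set_option linter.unusedSectionVars false
set_option linter.style.haveILetI false

namespace Cfsg.Agent.Lib.BestOffCom

open Cfsg.Agent.Lib.FFMod Cfsg.Agent.Lib.BestOffQ Cfsg.Agent.Lib.BestOffT Cfsg.Agent.Lib.BestOffR
  Cfsg.Agent.Lib.BestOffOp Cfsg.Agent.Lib.BestOffOdd

universe u

theorem forward_pow {X : Type*} [Group X] {K : Subgroup X} {g : X} (h : ∀ x ∈ K, g * x * g⁻¹ ∈ K) (m : ℕ) :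
    ∀ x ∈ K, g ^ m * x * (g ^ m)⁻¹ ∈ K := by
  induction m with
  | zero => simp
  | succ m ih =>
    intro x hx
    have h1 := h _ (ih x hx)
    have e : g ^ (m + 1) * x * (g ^ (m + 1))⁻¹ = g * (g ^ m * x * (g ^ m)⁻¹) * g⁻¹ := by
      rw [pow_succ']
      group
    rw [e]
    exact h1

theorem Hc_of_comm {X : Type*} [Group X] {a : X} {K : Subgroup X} {N : ℕ}
    (h : ∀ d, 0 < d → d < N → ∀ y ∈ K, ∀ z ∈ K,
      (a ^ d * z * (a ^ d)⁻¹) * y = y * (a ^ d * z * (a ^ d)⁻¹)) : Hc a K N := by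
  have key : ∀ i j, i < j → j < N → ∀ y ∈ K, ∀ z ∈ K, cj a i y * cj a j z = cj a j z * cj a i y := by
    intro i j hij hj y hy z hz
    obtain ⟨d, hd, rfl⟩ : ∃ d, 0 < d ∧ j = d + i := ⟨j - i, by omega, by omega⟩
    have h1 := h d hd (by omega) y hy z hz
    set w := a ^ d * z * (a ^ d)⁻¹ with hw
    have e : cj a (d + i) z = a ^ i * w * (a ^ i)⁻¹ := by
      simp only [cj, hw]
      rw [add_comm, pow_add]
      group
    rw [e]
    simp only [cj]
    calc a ^ i * y * (a ^ i)⁻¹ * (a ^ i * w * (a ^ i)⁻¹) = a ^ i * (y * w) * (a ^ i)⁻¹ := by group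
      _ = a ^ i * (w * y) * (a ^ i)⁻¹ := by rw [h1]
      _ = _ := by group
  intro i hi j hj hij y hy z hz
  rcases lt_or_gt_of_ne hij with h' | h'
  · exact key i j h' hj y hy z hz
  · exact (key j i h' hi z hz y hy).symm

section

variable {p : ℕ} [hp : Fact p.Prime] {E : Type u} [AddCommGroup E] [Module (ZMod p) E] [Finite E]

theorem charP_of_ne_one {x : UE p E} (hx : x ≠ 1) : CharP (Module.End (ZMod p) E) p := by
  have h : ∃ v : E, v ≠ 0 := by
    by_contra hcon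
    push Not at hcon
    apply hx
    apply Units.ext
    ext v
    rw [hcon v]
    simp
  obtain ⟨v, hv⟩ := h
  apply Module.charP_end
  exact ⟨v, (Ideal.torsionOf_eq_bot_iff_of_noZeroSMulDivisors _ v).mpr hv⟩

/-- From Timmesfeld's replacement and induction. -/
theorem tim_cases {A K : Subgroup (UE p E)}
    (IHA : ∀ A' K' : Subgroup (UE p E), Nat.card A' < Nat.card A → Setup (p := p) A' K' →
      ∀ b ∈ A', ∀ x ∈ K', b * x * b⁻¹ ∈ K')
    (hS : Setup (p := p) A K) {a : UE p E} (ha : a ∈ A) (ha1 : a ≠ 1) :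
    (∀ b ∈ A, ∀ c ∈ A, c ∈ annSub b) ∨
      ∃ q ∈ A, q ≠ 1 ∧ (∀ h ∈ K, q * h * q⁻¹ ∈ K) ∧ ∀ b ∈ A, q ∈ annSub b := by
  obtain ⟨Q, hQA, hfF, ⟨q, hqQ, hq1⟩, hrel⟩ := timmesfeld hS.bo ⟨a, ha, fun h => ha1 (Units.ext h)⟩
  by_cases hQ : Q = A
  · subst hQ
    left
    intro b hb c hc
    exact hrel c hc b hb
  · right
    have hlt : Nat.card Q < Nat.card A := by
      have hlt' : Q < A := lt_of_le_of_ne hQA hQ
      have h := Set.ncard_lt_ncard (SetLike.coe_ssubset_coe.mpr hlt') (Set.toFinite _)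
      rwa [← Nat.card_coe_set_eq, ← Nat.card_coe_set_eq] at h
    have hSQ : Setup (p := p) Q K :=
      ⟨IsBO.mono (rh p E) hS.bo hQA hfF, hS.qsl, fun b hb => hS.hc b (hQA hb)⟩
    have hN := IHA Q K hlt hSQ
    exact ⟨q, hQA hqQ, fun h => hq1 (by rw [h]; exact map_one _), hN q hqQ, fun b hb => hrel q hqQ b hb⟩

/-- Powers of a moving element move. -/
theorem moving_pow {A K : Subgroup (UE p E)} (hS : Setup (p := p) A K) {a x : UE p E} (ha : a ∈ A) (hx : x ∈ K)
    (hmove : a * x * a⁻¹ ∉ K) {d : ℕ} (hd : 0 < d) (hdp : d < p) :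
    ∀ y ∈ K, ∀ z ∈ K, (a ^ d * z * (a ^ d)⁻¹) * y = y * (a ^ d * z * (a ^ d)⁻¹) := by
  have ha1 : a ≠ 1 := by
    rintro rfl
    apply hmove
    simpa using hx
  rcases hS.hc (a ^ d) (A.pow_mem ha d) with h | h
  · exfalso
    have hord : orderOf a = p := orderOf_eq_prime (hS.bo.pow a ha) ha1
    have hco : d.Coprime (orderOf a) := by
      rw [hord]
      exact (Nat.coprime_of_lt_prime hd.ne' hdp hp.out).symm
    obtain ⟨m, hm⟩ := exists_pow_eq_self_of_coprime hco
    have h1 := forward_pow h m x hx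
    rw [hm] at h1
    exact hmove h1
  · intro y hy z hz
    exact h z hz y hy

/-- **The odd case.** -/
theorem step_odd
    (IH : ∀ (E' : Type u) [AddCommGroup E'] [Module (ZMod p) E'] [Finite E'], Nat.card E' < Nat.card E →
      ∀ A' K' : Subgroup (UE p E'), Setup (p := p) A' K' → ∀ b ∈ A', ∀ x ∈ K', b * x * b⁻¹ ∈ K')
    {A K : Subgroup (UE p E)}
    (IHA : ∀ A' K' : Subgroup (UE p E), Nat.card A' < Nat.card A → Setup (p := p) A' K' →
      ∀ b ∈ A', ∀ x ∈ K', b * x * b⁻¹ ∈ K')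
    (hp2 : p ≠ 2) (hS : Setup (p := p) A K) {a x : UE p E} (ha : a ∈ A) (hx : x ∈ K)
    (hmove : a * x * a⁻¹ ∉ K) : False := by
  have ha1 : a ≠ 1 := by
    rintro rfl
    apply hmove
    simpa using hx
  have hp3 : 3 ≤ p := by
    have := hp.out.two_le
    omega
  have hodd : Odd p := hp.out.odd_of_ne_two hp2
  haveI : CharP (Module.End (ZMod p) E) p := charP_of_ne_one ha1
  have hca : ∀ x ∈ K, ∀ y ∈ K, (a * x * a⁻¹) * y = y * (a * x * a⁻¹) := by
    rcases hS.hc a ha with h | h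
    · exact absurd (h x hx) hmove
    · exact h
  have hHc : Hc a K p := Hc_of_comm (fun d hd hdp y hy z hz => moving_pow hS ha hx hmove hd hdp y hy z hz)
  haveI : Finite K := Finite.of_injective _ K.subtype_injective
  rcases tim_cases IHA hS ha ha1 with h | ⟨q, hqA, hq1, hqn, hq⟩
  · obtain ⟨ℓ, hℓ, hℓp, -, x₀, hx₀, k, hord, y, hy, hne⟩ := hS.qsl.exists_noncentral p p hp.out hp.out
    have hτ := (h a ha a ha).1
    have hco : Nat.Coprime p (ℓ ^ k) :=
      Nat.Coprime.pow_right _ ((Nat.coprime_primes hp.out hℓ).mpr hℓp.symm)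
    have h1 := quad_comm hp3 hodd hτ (hS.bo.pow a ha) hHc hx₀ (by rw [← hord, pow_orderOf_eq_one]) hco
    have h2 := hca x₀ hx₀ y hy
    rw [h1, mul_inv_cancel_right] at h2
    exact hne h2
  · have hqc : ∃ h ∈ K, q * h * q⁻¹ ≠ h := by
      by_contra hcon
      push Not at hcon
      apply hq1
      apply no_centralizer IH hS ha hx hmove hqA
      intro y hy
      have := hcon y hy
      rwa [mul_inv_eq_iff_eq_mul] at this
    have hqa : q * a = a * q := hS.bo.comm q hqA a ha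
    exact odd_contra hp3 hS.qsl hHc (fun z hz =>
      dl_mem_annSub hS.qsl hHc (hS.bo.pow a ha) (by omega) hqa hqn hqc (hq a ha) hz)

end

end Cfsg.Agent.Lib.BestOffCom
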