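/-
General lemmas for the characteristic two case of the P(G,V)-theorem.
-/
import Mathlib
import Cfsg.Agent.Lib.BestOffCom

set_option autoImplicit false
set_option linter.unusedSectionVars false
set_option linter.style.haveILetI false

open scoped commutatorElement

namespace Cfsg.Agent.Lib.BestOffTwoA

open Cfsg.Agent.Lib.FFMod Cfsg.Agent.Lib.BestOffQ Cfsg.Agent.Lib.BestOffT Cfsg.Agent.Lib.BestOffR
  Cfsg.Agent.Lib.BestOffOp Cfsg.Agent.Lib.BestOffOdd Cfsg.Agent.Lib.BestOffCom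

universe u

/-- Counting in the dual. -/
theorem dual_count {p : ℕ} [Fact p.Prime] {V₁ : Type*} [AddCommGroup V₁] [Module (ZMod p) V₁] [Finite V₁]
    {ι : Type*} [Finite ι] (W : Submodule (ZMod p) V₁) (Ws : ι → Submodule (ZMod p) V₁)
    (h1 : ∀ i, W ≤ Ws i) (h2 : ∀ i j, i ≠ j → Ws i ⊔ Ws j = ⊤)
    (h3 : ∀ i, 4 * Nat.card (Ws i) ≤ Nat.card V₁) :
    (1 + 3 * Nat.card ι) * Nat.card W ≤ Nat.card V₁ := by
  classical
  haveI : Finite (Module.Dual (ZMod p) V₁) :=
    Finite.of_injective (fun f : Module.Dual (ZMod p) V₁ => (f : V₁ → ZMod p)) DFunLike.coe_injective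
  haveI := Fintype.ofFinite (Module.Dual (ZMod p) V₁)
  haveI := Fintype.ofFinite ι
  have hcard : ∀ U : Submodule (ZMod p) V₁, Nat.card U * Nat.card U.dualAnnihilator = Nat.card V₁ := by
    intro U
    rw [card_eq_pow U, card_eq_pow U.dualAnnihilator, ← pow_add,
      Subspace.finrank_add_finrank_dualAnnihilator_eq, Module.natCard_eq_pow_finrank (K := ZMod p),
      Nat.card_zmod]
  have hX : ∀ i, 4 ≤ Nat.card (Ws i).dualAnnihilator := by
    intro i
    have h4 := h3 i
    rw [← hcard (Ws i), mul_comm] at h4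
    exact Nat.le_of_mul_le_mul_left h4 Nat.card_pos
  set Y := W.dualAnnihilator with hYd
  have hXY : ∀ i, (Ws i).dualAnnihilator ≤ Y := fun i => Submodule.dualAnnihilator_anti (h1 i)
  have hdisj : ∀ i j, i ≠ j → (Ws i).dualAnnihilator ⊓ (Ws j).dualAnnihilator = ⊥ := by
    intro i j hij
    rw [← Submodule.dualAnnihilator_sup_eq, h2 i j hij, Submodule.dualAnnihilator_top]
  let F : ι → Finset (Module.Dual (ZMod p) V₁) := fun i =>
    (Finset.univ.filter (· ∈ (Ws i).dualAnnihilator)).erase 0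
  have hfil : ∀ U : Submodule (ZMod p) (Module.Dual (ZMod p) V₁),
      (Finset.univ.filter (· ∈ U)).card = Nat.card U := by
    intro U
    rw [Nat.card_eq_fintype_card, Fintype.card_subtype]
  have hF : ∀ i, 3 ≤ (F i).card := by
    intro i
    have h5 := hfil (Ws i).dualAnnihilator
    simp only [F]
    rw [Finset.card_erase_of_mem (by simp), h5]
    have := hX i
    omega
  have hdF : ((Finset.univ : Finset ι) : Set ι).PairwiseDisjoint F := by
    intro i _ j _ hij
    rw [Function.onFun, Finset.disjoint_left]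
    intro f hfi hfj
    simp only [F, Finset.mem_erase, Finset.mem_filter, Finset.mem_univ, true_and] at hfi hfj
    have h6 : f ∈ (Ws i).dualAnnihilator ⊓ (Ws j).dualAnnihilator := ⟨hfi.2, hfj.2⟩
    rw [hdisj i j hij] at h6
    exact hfi.1 (by simpa using h6)
  have hU := Finset.card_biUnion hdF
  have hsum : 3 * Fintype.card ι ≤ ∑ i, (F i).card := by
    calc 3 * Fintype.card ι = ∑ _i : ι, 3 := by simp [mul_comm]
      _ ≤ _ := Finset.sum_le_sum (fun i _ => hF i)
  have hsub : Finset.univ.biUnion F ⊆ (Finset.univ.filter (· ∈ Y)).erase 0 := by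
    intro f hf
    simp only [Finset.mem_biUnion, Finset.mem_univ, true_and, F, Finset.mem_erase, Finset.mem_filter] at hf
    obtain ⟨i, hi0, hi⟩ := hf
    simp only [Finset.mem_erase, Finset.mem_filter, Finset.mem_univ, true_and]
    exact ⟨hi0, hXY i hi⟩
  have hle := Finset.card_le_card hsub
  rw [hU, Finset.card_erase_of_mem (by simp), hfil Y] at hle
  have hY : 1 + 3 * Nat.card ι ≤ Nat.card Y := by
    rw [Nat.card_eq_fintype_card (α := ι)]
    have : 0 < Nat.card Y := Nat.card_pos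
    omega
  calc (1 + 3 * Nat.card ι) * Nat.card W ≤ Nat.card Y * Nat.card W := Nat.mul_le_mul_right _ hY
    _ = Nat.card V₁ := by rw [mul_comm, hYd, hcard W]

section

variable {p : ℕ} [hp : Fact p.Prime] {Γ : Type*} [Group Γ] {E : Type*} [AddCommGroup E] [Module (ZMod p) E]
  (ρ : Γ →* Module.End (ZMod p) E)

theorem act_mem_comS {M : Subgroup Γ} {g : Γ} (hg : g ∈ M) {v : E} (hv : v ∈ comS ρ M) :
    ρ g v ∈ comS ρ M := by
  have := add_mem (sub_mem_comS ρ hg v) hv
  simpa using this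

/-- Elements of `M` moving an invariant set into `P`. -/
def Esub (M : Subgroup Γ) (S P : Submodule (ZMod p) E) (hS : ∀ g ∈ M, ∀ v ∈ S, ρ g v ∈ S) : Subgroup Γ where
  carrier := {g | g ∈ M ∧ ∀ v ∈ S, ρ g v - v ∈ P}
  mul_mem' := by
    rintro g h ⟨hg, hg'⟩ ⟨hh, hh'⟩
    refine ⟨M.mul_mem hg hh, fun v hv => ?_⟩
    have e : ρ (g * h) v - v = (ρ g (ρ h v) - ρ h v) + (ρ h v - v) := by
      rw [map_mul, Module.End.mul_apply]
      abel
    rw [e]
    exact P.add_mem (hg' _ (hS h hh v hv)) (hh' v hv)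
  one_mem' := ⟨M.one_mem, fun v _ => by simp⟩
  inv_mem' := by
    rintro g ⟨hg, hg'⟩
    refine ⟨M.inv_mem hg, fun v hv => ?_⟩
    have e1 : ρ g (ρ g⁻¹ v) = v := by
      rw [← Module.End.mul_apply, ← map_mul, mul_inv_cancel, map_one]
      rfl
    have e : ρ g⁻¹ v - v = -(ρ g (ρ g⁻¹ v) - ρ g⁻¹ v) := by
      rw [e1]
      abel
    rw [e]
    exact P.neg_mem (hg' _ (hS g⁻¹ (M.inv_mem hg) v hv))

theorem comS_le_of_perfect {M : Subgroup Γ} (hperf : ⁅M, M⁆ = M) (P : Submodule (ZMod p) E)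
    (h : ∀ g ∈ M, ∀ v ∈ comS ρ M, ρ g v - v ∈ P) : comS ρ M ≤ P := by
  set E₂ : Subgroup Γ := Esub ρ M ⊤ P (fun _ _ _ _ => Submodule.mem_top) with hE₂
  have hle : ⁅M, M⁆ ≤ E₂ := by
    rw [Subgroup.commutator_le]
    intro g hg k hk
    have hcm : ⁅g, k⁆ ∈ M := by
      rw [← hperf]
      exact Subgroup.commutator_mem_commutator hg hk
    refine ⟨hcm, ?_⟩
    intro v _
    set u := ρ (k * g)⁻¹ v with hu
    have hvu : v = ρ k (ρ g u) := by
      rw [← Module.End.mul_apply, ← map_mul, hu, ← Module.End.mul_apply, ← map_mul, mul_inv_cancel, map_one]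
      rfl
    have e1 : ρ ⁅g, k⁆ v = ρ g (ρ k u) := by
      rw [hvu, commutatorElement_def]
      simp only [map_mul, Module.End.mul_apply]
      have : ρ k⁻¹ (ρ k (ρ g u)) = ρ g u := by
        rw [← Module.End.mul_apply, ← map_mul, inv_mul_cancel, map_one]
        rfl
      rw [this]
      have : ρ g⁻¹ (ρ g u) = u := by
        rw [← Module.End.mul_apply, ← map_mul, inv_mul_cancel, map_one]
        rfl
      rw [this]
    have e2 : ρ ⁅g, k⁆ v - v = (ρ g (ρ k u - u) - (ρ k u - u)) - (ρ k (ρ g u - u) - (ρ g u - u)) := by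
      rw [e1, hvu]
      simp only [map_sub]
      abel
    rw [e2]
    exact P.sub_mem (h g hg _ (sub_mem_comS ρ hk u)) (h k hk _ (sub_mem_comS ρ hg u))
  rw [hperf] at hle
  apply Submodule.span_le.mpr
  rintro _ ⟨b, hb, v, rfl⟩
  exact (hle hb).2 v Submodule.mem_top

variable [Finite E]

/-- Elements of order prime to small numbers fix small invariant subspaces. -/
theorem fix_small {y : Γ} {ℓ k : ℕ} (hℓ : ℓ.Prime) (hℓ5 : 5 ≤ ℓ) (hy : y ^ (ℓ ^ k) = 1)
    (W₁ : Submodule (ZMod p) E) (hcard : Nat.card W₁ ≤ 4) (hinv : ∀ w ∈ W₁, ρ y w ∈ W₁) :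
    ∀ w ∈ W₁, ρ y w = w := by
  intro w hw
  have hmem : ∀ i : ℕ, ρ (y ^ i) w ∈ W₁ := by
    intro i
    induction i with
    | zero => simpa using hw
    | succ i ih =>
      rw [pow_succ', map_mul, Module.End.mul_apply]
      exact hinv _ ih
  let f : Fin 5 → W₁ := fun i => ⟨ρ (y ^ (i : ℕ)) w, hmem i⟩
  have hninj : ¬ Function.Injective f := by
    intro hinj
    have := Nat.card_le_card_of_injective f hinj
    simp at this
    omega
  rw [Function.Injective] at hninj
  push Not at hninj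
  obtain ⟨i, j, hij, hne⟩ := hninj
  have hrel : ∀ i j : ℕ, i < j → j < 5 → ρ (y ^ i) w = ρ (y ^ j) w → ρ y w = w := by
    intro i j hlt hj heq
    obtain ⟨d, hd, rfl⟩ : ∃ d, 0 < d ∧ j = i + d := ⟨j - i, by omega, by omega⟩
    have h1 : ρ (y ^ d) w = w := by
      have h2 : ρ (y ^ (i + d)) w = ρ (y ^ i) (ρ (y ^ d) w) := by
        rw [pow_add, map_mul, Module.End.mul_apply]
      rw [h2] at heq
      have h3 : ρ (y ^ i)⁻¹ (ρ (y ^ i) w) = ρ (y ^ i)⁻¹ (ρ (y ^ i) (ρ (y ^ d) w)) := by rw [heq]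
      have h4 : ∀ u, ρ (y ^ i)⁻¹ (ρ (y ^ i) u) = u := by
        intro u
        rw [← Module.End.mul_apply, ← map_mul, inv_mul_cancel, map_one]
        rfl
      rw [h4, h4] at h3
      exact h3.symm
    have hord : orderOf y ∣ ℓ ^ k := orderOf_dvd_of_pow_eq_one hy
    have hco : d.Coprime (orderOf y) := by
      apply Nat.Coprime.coprime_dvd_right hord
      apply Nat.Coprime.pow_right
      exact (Nat.coprime_of_lt_prime hd.ne' (by omega) hℓ).symm
    obtain ⟨m, hm⟩ := exists_pow_eq_self_of_coprime hco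
    have h5 : ∀ m : ℕ, ρ ((y ^ d) ^ m) w = w := by
      intro m
      induction m with
      | zero => simp
      | succ m ih => rw [pow_succ, map_mul, Module.End.mul_apply, h1, ih]
    have := h5 m
    rwa [hm] at this
  have hv : ρ (y ^ (i : ℕ)) w = ρ (y ^ (j : ℕ)) w := congrArg Subtype.val hij
  rcases lt_or_gt_of_ne (fun h => hne (Fin.ext h) : (i : ℕ) ≠ j) with h | h
  · exact hrel i j h j.2 hv
  · exact hrel j i h i.2 hv.symm

end

end Cfsg.Agent.Lib.BestOffTwoA
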