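/-
The two key claims of the characteristic two case of the P(G,V)-theorem.
-/
import Mathlib
import Cfsg.Agent.Lib.BestOffTwoA

set_option autoImplicit false
set_option linter.unusedSectionVars false
set_option linter.style.haveILetI false

open scoped commutatorElement

namespace Cfsg.Agent.Lib.BestOffTwoB

open Cfsg.Agent.Lib.FFMod Cfsg.Agent.Lib.BestOffQ Cfsg.Agent.Lib.BestOffT Cfsg.Agent.Lib.BestOffR
  Cfsg.Agent.Lib.BestOffOp Cfsg.Agent.Lib.BestOffOdd Cfsg.Agent.Lib.BestOffCom Cfsg.Agent.Lib.BestOffTwoA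

universe u

variable [hp : Fact (Nat.Prime 2)] {E : Type u} [AddCommGroup E] [Module (ZMod 2) E] [Finite E]

/-- Claim 2: a swapping involution has large commutator on `S`. -/
theorem claim2 {K K' M : Subgroup (UE 2 E)} (hQ : QSL K) (hKM : K ≤ M) (hK'M : K' ≤ M)
    (hKK' : ∀ x ∈ K, ∀ z ∈ K', x * z = z * x) {b : UE 2 E} (hb2 : b * b = 1)
    (hbK : ∀ x ∈ K, b * x * b⁻¹ ∈ K')
    (hbS : ∀ v ∈ comS (rh 2 E) M, rh 2 E b v ∈ comS (rh 2 E) M)
    (hcomm : ∀ x ∈ K, ∀ y ∈ K, (b * x * b⁻¹) * y = y * (b * x * b⁻¹)) :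
    4 * Nat.card ((LinearMap.ker (rh 2 E b - 1)).comap (comS (rh 2 E) M).subtype)
      ≤ Nat.card (comS (rh 2 E) M) := by
  classical
  set ρ := rh 2 E with hρ
  set S := comS ρ M with hS
  by_contra hcon
  push Not at hcon
  set τ : Module.End (ZMod 2) E := ρ b - 1 with hτ
  set Ws := (LinearMap.ker τ).comap S.subtype with hWs
  set P₀ : Submodule (ZMod 2) E := S.map τ with hP₀
  have hrn : Nat.card S = Nat.card Ws * Nat.card P₀ := by
    have h1 := LinearMap.finrank_range_add_finrank_ker (τ.domRestrict S)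
    rw [LinearMap.range_domRestrict, LinearMap.ker_domRestrict] at h1
    rw [card_eq_pow S, card_eq_pow Ws, card_eq_pow P₀, ← pow_add, add_comm]
    congr 1
    exact h1.symm
  have hP₀4 : Nat.card P₀ < 4 := by
    rw [hrn, mul_comm] at hcon
    exact lt_of_mul_lt_mul_right hcon (Nat.zero_le _)
  have hfr : Module.finrank (ZMod 2) P₀ ≤ 1 := by
    rw [card_eq_pow P₀] at hP₀4
    by_contra h
    push Not at h
    have : 2 ^ 2 ≤ 2 ^ Module.finrank (ZMod 2) P₀ := Nat.pow_le_pow_right (by norm_num) h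
    omega
  obtain ⟨ℓ, hℓ, hℓ2, hℓ3, x, hx, k, hord, y, hy, hne⟩ :=
    hQ.exists_noncentral 2 3 Nat.prime_two Nat.prime_three
  have hℓ5 : 5 ≤ ℓ := by
    by_contra h
    push Not at h
    interval_cases ℓ
    · exact absurd hℓ (by norm_num)
    · exact absurd hℓ (by norm_num)
    · exact hℓ2 rfl
    · exact hℓ3 rfl
    · exact absurd hℓ (by norm_num)
  have hbi : b⁻¹ = b := inv_eq_of_mul_eq_one_left hb2
  set y' : UE 2 E := b * x * b⁻¹ with hy'
  have hy'K' : y' ∈ K' := hbK x hx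
  have hcxy' : x * y' = y' * x := hKK' x hx y' hy'K'
  have hcxy'E : (x : Module.End (ZMod 2) E) * (y' : Module.End (ZMod 2) E)
      = (y' : Module.End (ZMod 2) E) * (x : Module.End (ZMod 2) E) := by
    have := congrArg Units.val hcxy'
    simpa using this
  set s : Module.End (ZMod 2) E := (y' : Module.End (ZMod 2) E) - (x : Module.End (ZMod 2) E) with hs
  have hact : ∀ g : UE 2 E, ∀ v, (g : Module.End (ZMod 2) E) v = ρ g v := fun _ _ => rfl
  have hτv : ∀ v, τ v = ρ b v - v := fun _ => rfl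
  have hsid : ∀ v, s v = τ (ρ x v) + ρ x (τ v) + τ (ρ x (τ v)) := by
    intro v
    have e1 : s v = ρ y' v - ρ x v := rfl
    have e2 : ρ y' v = ρ b (ρ x (ρ b v)) := by
      rw [hy', hbi]
      simp only [map_mul, Module.End.mul_apply]
    rw [e1, e2]
    simp only [hτv, map_sub]
    abel
  have hSx : ∀ v ∈ S, ρ x v ∈ S := fun v hv => act_mem_comS ρ (hKM hx) hv
  set R : Submodule (ZMod 2) E := P₀ ⊔ P₀.map (ρ x) with hR
  have hsR : ∀ v ∈ S, s v ∈ R := by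
    intro v hv
    rw [hsid v]
    have hτS : τ v ∈ P₀ := ⟨v, hv, rfl⟩
    have hτ_S : τ v ∈ S := by
      rw [hτv]
      exact S.sub_mem (hbS v hv) hv
    refine R.add_mem (R.add_mem ?_ ?_) ?_
    · exact (le_sup_left : P₀ ≤ R) ⟨_, hSx v hv, rfl⟩
    · exact (le_sup_right : P₀.map (ρ x) ≤ R) ⟨_, hτS, rfl⟩
    · exact (le_sup_left : P₀ ≤ R) ⟨_, hSx _ hτ_S, rfl⟩
  set W₁ : Submodule (ZMod 2) E := S.map s with hW₁
  have hW₁R : W₁ ≤ R := by
    rintro _ ⟨v, hv, rfl⟩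
    exact hsR v hv
  have hW₁4 : Nat.card W₁ ≤ 4 := by
    have h1 : Module.finrank (ZMod 2) R ≤ 2 := by
      have h2 := Submodule.finrank_add_le_finrank_add_finrank P₀ (P₀.map (ρ x))
      have h3 : Module.finrank (ZMod 2) (P₀.map (ρ x)) ≤ Module.finrank (ZMod 2) P₀ :=
        Submodule.finrank_map_le _ _
      rw [hR]
      omega
    have h4 : Module.finrank (ZMod 2) W₁ ≤ 2 := (Submodule.finrank_mono hW₁R).trans h1
    rw [card_eq_pow W₁]
    calc 2 ^ Module.finrank (ZMod 2) W₁ ≤ 2 ^ 2 := Nat.pow_le_pow_right (by norm_num) h4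
      _ = 4 := by norm_num
  have hsx : ∀ v, s (ρ x v) = ρ x (s v) := by
    intro v
    have e1 : ρ y' (ρ x v) = ρ x (ρ y' v) := by
      have : (ρ y' * ρ x) v = (ρ x * ρ y') v := by
        rw [← map_mul, ← map_mul, ← hcxy']
      simpa using this
    show ρ y' (ρ x v) - ρ x (ρ x v) = ρ x (ρ y' v - ρ x v)
    rw [map_sub, e1]
  have hsy' : ∀ v, s (ρ y' v) = ρ y' (s v) := by
    intro v
    have e1 : ρ x (ρ y' v) = ρ y' (ρ x v) := by
      have : (ρ x * ρ y') v = (ρ y' * ρ x) v := by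
        rw [← map_mul, ← map_mul, hcxy']
      simpa using this
    show ρ y' (ρ y' v) - ρ x (ρ y' v) = ρ y' (ρ y' v - ρ x v)
    rw [map_sub, e1]
  have hxN : x ^ (ℓ ^ k) = 1 := by rw [← hord, pow_orderOf_eq_one]
  have hy'N : y' ^ (ℓ ^ k) = 1 := by
    rw [hy', conj_pow, hxN]
    simp
  have hfixx := fix_small ρ hℓ hℓ5 hxN W₁ hW₁4 (by
    rintro _ ⟨u, hu, rfl⟩
    exact ⟨ρ x u, hSx u hu, hsx u⟩)
  have hfixy := fix_small ρ hℓ hℓ5 hy'N W₁ hW₁4 (by
    rintro _ ⟨u, hu, rfl⟩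
    exact ⟨ρ y' u, act_mem_comS ρ (hK'M hy'K') hu, hsy' u⟩)
  have hss : ∀ v ∈ S, s (s v) = 0 := by
    intro v hv
    have hw : s v ∈ W₁ := ⟨v, hv, rfl⟩
    show ρ y' (s v) - ρ x (s v) = 0
    rw [hfixx _ hw, hfixy _ hw, sub_self]
  have hx1 : x ≠ 1 := by
    rintro rfl
    apply hne
    simp
  haveI : CharP (Module.End (ZMod 2) E) 2 := charP_of_ne_one hx1
  have hco : Nat.Coprime 2 (ℓ ^ k) := by
    apply Nat.Coprime.pow_right
    exact (Nat.coprime_primes Nat.prime_two hℓ).mpr hℓ2.symm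
  have hfpos : 1 ≤ Nat.totient (ℓ ^ k) := by
    rw [Nat.succ_le_iff, Nat.totient_pos]
    exact pow_pos hℓ.pos k
  have hf1 : (x : Module.End (ZMod 2) E) ^ (2 ^ Nat.totient (ℓ ^ k)) = x := by
    apply pow_frob (by norm_num) hco
    have := congrArg Units.val hxN
    simpa using this
  have hf2 : (y' : Module.End (ZMod 2) E) ^ (2 ^ Nat.totient (ℓ ^ k)) = y' := by
    apply pow_frob (by norm_num) hco
    have := congrArg Units.val hy'N
    simpa using this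
  have hsf : s ^ (2 ^ Nat.totient (ℓ ^ k)) = s := by
    rw [hs, sub_pow_char_pow_of_commute 2 _ (show Commute (y' : Module.End (ZMod 2) E)
      (x : Module.End (ZMod 2) E) from hcxy'E.symm), hf1, hf2]
  have hs0 : ∀ v ∈ S, s v = 0 := by
    intro v hv
    have h2 : 2 ≤ 2 ^ Nat.totient (ℓ ^ k) := by
      calc 2 = 2 ^ 1 := by norm_num
        _ ≤ _ := Nat.pow_le_pow_right (by norm_num) hfpos
    obtain ⟨m, hm⟩ := Nat.exists_eq_add_of_le h2
    have h3 : s v = (s ^ m) (s (s v)) := by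
      conv_lhs => rw [← hsf, hm]
      rw [add_comm, pow_add, pow_two]
      simp only [Module.End.mul_apply]
    rw [h3, hss v hv, map_zero]
  set z : UE 2 E := y' * x⁻¹ with hz
  have hzM : z ∈ M := M.mul_mem (hK'M hy'K') (M.inv_mem (hKM hx))
  have hzS : ∀ v ∈ S, ρ z v = v := by
    intro v hv
    have h1 : ρ x⁻¹ v ∈ S := act_mem_comS ρ (M.inv_mem (hKM hx)) hv
    have h2 := hs0 _ h1
    have h3 : ρ y' (ρ x⁻¹ v) = ρ x (ρ x⁻¹ v) := sub_eq_zero.mp h2
    rw [hz, map_mul, Module.End.mul_apply, h3, ← Module.End.mul_apply, ← map_mul, mul_inv_cancel, map_one]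
    rfl
  have hz2 : ((z : Module.End (ZMod 2) E) - 1) ^ 2 = 0 := by
    ext v
    have h1 : ρ z v - v ∈ S := sub_mem_comS ρ hzM v
    have h2 := hzS _ h1
    rw [pow_two]
    show ρ z (ρ z v - v) - (ρ z v - v) = 0
    rw [h2, sub_self]
  have hz3 : z ^ 2 = 1 := by
    rw [sub_pow_char_of_commute (p := 2) (Commute.one_right _), one_pow, sub_eq_zero] at hz2
    apply Units.ext
    simpa using hz2
  have hz4 : z ^ (ℓ ^ k) = 1 := by
    have hc : Commute y' x⁻¹ := (show Commute x y' from hcxy').symm.inv_right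
    rw [hz, hc.mul_pow, hy'N, inv_pow, hxN]
    simp
  have hz5 : z = 1 := by
    have h1 := orderOf_dvd_of_pow_eq_one hz3
    have h2 := orderOf_dvd_of_pow_eq_one hz4
    have h3 : orderOf z ∣ Nat.gcd 2 (ℓ ^ k) := Nat.dvd_gcd h1 h2
    rw [hco] at h3
    exact orderOf_eq_one_iff.mp (Nat.dvd_one.mp h3)
  have hz6 : y' = x := by
    rw [hz, mul_inv_eq_one] at hz5
    exact hz5
  have h7 := hcomm x hx y hy
  rw [← hy', hz6] at h7
  exact hne h7

theorem dl_two (b x : UE 2 E) : dl b x 2 = x * (b * x * b⁻¹) := by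
  simp [dl_succ, dl_zero, cj]

/-- Claim 1: two different swapping involutions have commuting fixed points on `S` spanning `S`. -/
theorem claim1 {K K' M : Subgroup (UE 2 E)} (hQ' : QSL K') (hKM : K ≤ M) (hK'M : K' ≤ M)
    (hMle : ∀ D : Subgroup (UE 2 E), K ≤ D → K' ≤ D → M ≤ D)
    (hperf : ⁅M, M⁆ = M) {b b' n : UE 2 E}
    (hbK : ∀ x ∈ K, b * x * b⁻¹ ∈ K') (hbK' : ∀ z ∈ K', ∃ x ∈ K, z = b * x * b⁻¹)
    (hb'b : b' = n * b) (hnK' : ∀ z ∈ K', n * z * n⁻¹ ∈ K') (hnc : ∃ z ∈ K', n * z * n⁻¹ ≠ z)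
    (hd : ∀ x ∈ K, dl b x 2 ∈ annSub b) (hd' : ∀ x ∈ K, dl b' x 2 ∈ annSub b') :
    comS (rh 2 E) M ≤ (LinearMap.ker (rh 2 E b - 1) ⊓ comS (rh 2 E) M) ⊔
      (LinearMap.ker (rh 2 E b' - 1) ⊓ comS (rh 2 E) M) := by
  classical
  set ρ := rh 2 E with hρ
  set S := comS ρ M with hS
  set P := (LinearMap.ker (ρ b - 1) ⊓ S) ⊔ (LinearMap.ker (ρ b' - 1) ⊓ S) with hP
  have hSinv : ∀ g ∈ M, ∀ v ∈ S, ρ g v ∈ S := fun g hg v hv => act_mem_comS ρ hg hv
  set E₃ := Esub ρ M S P hSinv with hE₃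
  have hann : ∀ (c d : UE 2 E), d ∈ annSub c → d ∈ M →
      ∀ v, ρ d v - v ∈ LinearMap.ker (ρ c - 1) ⊓ S := by
    intro c d hd hdM v
    refine Submodule.mem_inf.mpr ⟨?_, sub_mem_comS ρ hdM v⟩
    have h1 := congrArg (fun f : Module.End (ZMod 2) E => f v) hd.1
    rw [LinearMap.mem_ker]
    exact h1
  have hdE : ∀ x ∈ K, x * (b * x * b⁻¹) ∈ E₃ := by
    intro x hx
    have hm : x * (b * x * b⁻¹) ∈ M := M.mul_mem (hKM hx) (hK'M (hbK x hx))
    refine ⟨hm, fun v _ => ?_⟩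
    have h1 := hd x hx
    rw [dl_two] at h1
    exact (le_sup_left : _ ≤ P) (hann b _ h1 hm v)
  have hb'K : ∀ x ∈ K, b' * x * b'⁻¹ = n * (b * x * b⁻¹) * n⁻¹ := by
    intro x _
    rw [hb'b]
    group
  have hdE' : ∀ x ∈ K, x * (n * (b * x * b⁻¹) * n⁻¹) ∈ E₃ := by
    intro x hx
    have hm1 : n * (b * x * b⁻¹) * n⁻¹ ∈ K' := hnK' _ (hbK x hx)
    have hm : x * (n * (b * x * b⁻¹) * n⁻¹) ∈ M := M.mul_mem (hKM hx) (hK'M hm1)
    refine ⟨hm, fun v _ => ?_⟩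
    have h1 := hd' x hx
    rw [dl_two, hb'K x hx] at h1
    exact (le_sup_right : _ ≤ P) (hann b' _ h1 hm v)
  have hzE : ∀ z ∈ K', z⁻¹ * (n * z * n⁻¹) ∈ E₃ := by
    intro z hz
    obtain ⟨x, hx, rfl⟩ := hbK' z hz
    have h1 := E₃.mul_mem (E₃.inv_mem (hdE x hx)) (hdE' x hx)
    have e : (x * (b * x * b⁻¹))⁻¹ * (x * (n * (b * x * b⁻¹) * n⁻¹))
        = (b * x * b⁻¹)⁻¹ * (n * (b * x * b⁻¹) * n⁻¹) := by
      group
    rwa [e] at h1
  have hK'E : K' ≤ E₃ := by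
    apply hQ'.le_of_comm hnK' hnc
    intro h hh
    have h1 := E₃.inv_mem (hzE h⁻¹ (K'.inv_mem hh))
    have e : (h⁻¹⁻¹ * (n * h⁻¹ * n⁻¹))⁻¹ = n * h * n⁻¹ * h⁻¹ := by group
    rwa [e] at h1
  have hKE : K ≤ E₃ := by
    intro x hx
    have h1 := E₃.mul_mem (hdE x hx) (E₃.inv_mem (hK'E (hbK x hx)))
    have e : x * (b * x * b⁻¹) * (b * x * b⁻¹)⁻¹ = x := by group
    rwa [e] at h1
  have hME := hMle E₃ hKE hK'E
  exact comS_le_of_perfect ρ hperf P (fun g hg v hv => (hME hg).2 v hv)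

end Cfsg.Agent.Lib.BestOffTwoB
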