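/-
The characteristic two case of the P(G,V)-theorem.
-/
import Mathlib
import Cfsg.Agent.Lib.BestOffTwoB

set_option autoImplicit false
set_option linter.unusedSectionVars false
set_option linter.style.haveILetI false

open scoped commutatorElement

namespace Cfsg.Agent.Lib.BestOffTwoC

open Cfsg.Agent.Lib.FFMod Cfsg.Agent.Lib.BestOffQ Cfsg.Agent.Lib.BestOffT Cfsg.Agent.Lib.BestOffR
  Cfsg.Agent.Lib.BestOffOp Cfsg.Agent.Lib.BestOffOdd Cfsg.Agent.Lib.BestOffCom Cfsg.Agent.Lib.BestOffTwoA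
  Cfsg.Agent.Lib.BestOffTwoB

universe u

variable [hp : Fact (Nat.Prime 2)] {E : Type u} [AddCommGroup E] [Module (ZMod 2) E] [Finite E]

variable (IH : ∀ (E' : Type u) [AddCommGroup E'] [Module (ZMod 2) E'] [Finite E'], Nat.card E' < Nat.card E →
      ∀ A' K' : Subgroup (UE 2 E'), Setup (p := 2) A' K' → ∀ b ∈ A', ∀ x ∈ K', b * x * b⁻¹ ∈ K')

include IH in
/-- Every element of `A` normalizes `K` or lies in the other coset. -/
theorem cosets {A K : Subgroup (UE 2 E)} (hS : Setup (p := 2) A K) {a x₀ : UE 2 E} (ha : a ∈ A) (hx₀ : x₀ ∈ K)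
    (hmove : a * x₀ * a⁻¹ ∉ K) :
    ∀ c ∈ A, (∀ x ∈ K, c * x * c⁻¹ ∈ K) ∨ (∀ x ∈ K, (a * c) * x * (a * c)⁻¹ ∈ K) := by
  classical
  by_contra hcon
  push Not at hcon
  obtain ⟨c, hc, ⟨x₁, hx₁, h1⟩, ⟨x₂, hx₂, h2⟩⟩ := hcon
  have ha2 : a * a = 1 := by
    have := hS.bo.pow a ha
    rwa [pow_two] at this
  have hai : a⁻¹ = a := inv_eq_of_mul_eq_one_left ha2
  have ha1 : a ≠ 1 := by
    rintro rfl
    apply hmove
    simpa using hx₀
  have hmv : ∀ d ∈ A, (∃ x ∈ K, d * x * d⁻¹ ∉ K) →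
      ∀ x ∈ K, ∀ y ∈ K, (d * x * d⁻¹) * y = y * (d * x * d⁻¹) := by
    rintro d hd ⟨x, hx, hxd⟩
    rcases hS.hc d hd with h | h
    · exact absurd (h x hx) hxd
    · exact h
  have hca := hmv a ha ⟨x₀, hx₀, hmove⟩
  have hHc : Hc a K 2 := Hc_of_comm (fun d hd hd2 y hy z hz => by
    obtain rfl : d = 1 := by omega
    simpa using hca z hz y hy)
  haveI : Finite K := Finite.of_injective _ K.subtype_injective
  set δ : K →* UE 2 E := dlHom hHc with hδ
  have hδa : ∀ u : K, δ u = (u : UE 2 E) * (a * (u : UE 2 E) * a⁻¹) := fun u => dl_two a u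
  have hnt : ∃ x, δ x ≠ 1 := by
    obtain ⟨x, hx, y, hy, hne⟩ := hS.qsl.noncomm
    refine ⟨⟨x, hx⟩, fun h => hne ?_⟩
    rw [hδa] at h
    have h3 : a * x * a⁻¹ = x⁻¹ := eq_inv_of_mul_eq_one_right h
    have h4 := hca x hx y hy
    rw [h3] at h4
    have h5 : x * (x⁻¹ * y) * x = x * (y * x⁻¹) * x := by rw [h4]
    simp only [mul_inv_cancel_left, mul_assoc, inv_mul_cancel, mul_one] at h5
    exact h5.symm
  have hQ : QSL δ.range := hS.qsl.range δ hnt
  -- conjugation formula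
  have hconj : ∀ d ∈ A, ∀ u : K, d * δ u * d⁻¹ = dl a (d * (u : UE 2 E) * d⁻¹) 2 := by
    intro d hd u
    exact conj_dl (hS.bo.comm d hd a ha) _ _
  have hcomm3 : ∀ d ∈ A, (∃ x ∈ K, d * x * d⁻¹ ∉ K) → (∃ x ∈ K, (a * d) * x * (a * d)⁻¹ ∉ K) →
      ∀ x ∈ δ.range, ∀ y ∈ δ.range, (d * x * d⁻¹) * y = y * (d * x * d⁻¹) := by
    rintro d hd hd1 hd2 _ ⟨u, rfl⟩ _ ⟨v, rfl⟩
    have c1 := hmv d hd hd1
    have c2 := hmv (a * d) (A.mul_mem ha hd) hd2
    rw [hconj d hd u, dl_two, hδa v]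
    set u' := d * (u : UE 2 E) * d⁻¹ with hu'
    have e1 : a * u' * a⁻¹ = (a * d) * (u : UE 2 E) * (a * d)⁻¹ := by
      rw [hu']
      group
    have e3 : u' = a * (a * u' * a⁻¹) * a⁻¹ := by
      rw [hai]
      calc u' = (a * a) * u' * (a * a) := by rw [ha2]; simp
        _ = _ := by group
    have w13 : Commute u' (v : UE 2 E) := c1 u u.2 v v.2
    have w23 : Commute (a * u' * a⁻¹) (v : UE 2 E) := by
      show _ * _ = _ * _
      rw [e1]
      exact c2 u u.2 v v.2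
    have conj_comm : ∀ s t : UE 2 E, Commute s t → Commute (a * s * a⁻¹) (a * t * a⁻¹) := by
      intro s t h
      show _ * _ = _ * _
      calc a * s * a⁻¹ * (a * t * a⁻¹) = a * (s * t) * a⁻¹ := by group
        _ = a * (t * s) * a⁻¹ := by rw [h.eq]
        _ = _ := by group
    have w14 : Commute u' (a * (v : UE 2 E) * a⁻¹) := by
      have := conj_comm _ _ w23
      rwa [← e3] at this
    have w24 : Commute (a * u' * a⁻¹) (a * (v : UE 2 E) * a⁻¹) := conj_comm _ _ w13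
    have : Commute (u' * (a * u' * a⁻¹)) ((v : UE 2 E) * (a * (v : UE 2 E) * a⁻¹)) :=
      Commute.mul_left (Commute.mul_right w13 w14) (Commute.mul_right w23 w24)
    exact this
  have hSt : Setup (p := 2) A δ.range := by
    refine ⟨hS.bo, hQ, ?_⟩
    intro d hd
    by_cases hd1 : ∀ x ∈ K, d * x * d⁻¹ ∈ K
    · left
      rintro _ ⟨u, rfl⟩
      rw [hconj d hd u]
      exact ⟨⟨_, hd1 u u.2⟩, rfl⟩
    · by_cases hd2 : ∀ x ∈ K, (a * d) * x * (a * d)⁻¹ ∈ K
      · left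
        rintro _ ⟨u, rfl⟩
        have e : d * δ u * d⁻¹ = a * ((a * d) * δ u * (a * d)⁻¹) * a⁻¹ := by
          have e0 : d = a * (a * d) := by rw [← mul_assoc, ha2, one_mul]
          calc d * δ u * d⁻¹ = (a * (a * d)) * δ u * (a * (a * d))⁻¹ := by rw [← e0]
            _ = _ := by group
        rw [e, hconj (a * d) (A.mul_mem ha hd) u]
        have hw := hd2 u u.2
        rw [comm_dl hHc (by rw [pow_two, ha2]) (by norm_num) hw]
        exact ⟨⟨_, hw⟩, rfl⟩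
      · right
        push Not at hd1 hd2
        exact hcomm3 d hd hd1 hd2
  have hmv2 : ∃ h ∈ δ.range, c * h * c⁻¹ ∉ δ.range := by
    by_contra hcon
    push Not at hcon
    haveI : Finite δ.range := Finite.of_injective _ (δ.range).subtype_injective
    have := comm_of_conj_self hcon (hcomm3 c hc ⟨x₁, hx₁, h1⟩ ⟨x₂, hx₂, h2⟩)
    obtain ⟨u, hu, v, hv, huv⟩ := hQ.noncomm
    exact huv (this u hu v hv)
  obtain ⟨h, hh, hhm⟩ := hmv2
  refine restrict_step IH hSt (N₀ := Subgroup.zpowers a) ?_ ?_ ?_ hc hh hhm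
  · rwa [Subgroup.zpowers_le]
  · intro h
    rw [Subgroup.zpowers_eq_bot] at h
    exact ha1 h
  · rintro d hd _ ⟨u, rfl⟩
    obtain ⟨n, rfl⟩ := Subgroup.mem_zpowers_iff.mp hd
    have h3 : Commute a (δ u) := by
      have := comm_dl hHc (by rw [pow_two, ha2]) (by norm_num) u.2
      rw [mul_inv_eq_iff_eq_mul] at this
      exact this
    exact (h3.zpow_left n).eq

theorem sup_eq_top_of_le {S X Y : Submodule (ZMod 2) E} (h : S ≤ (X ⊓ S) ⊔ (Y ⊓ S)) :
    X.comap S.subtype ⊔ Y.comap S.subtype = ⊤ := by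
  rw [eq_top_iff]
  rintro ⟨v, hv⟩ _
  obtain ⟨u, hu, w, hw, e⟩ := Submodule.mem_sup.mp (h hv)
  refine Submodule.mem_sup.mpr ⟨⟨u, hu.2⟩, hu.1, ⟨w, hw.2⟩, hw.1, ?_⟩
  exact Subtype.ext e

include IH in
/-- **The characteristic two case.** -/
theorem step_two {A K : Subgroup (UE 2 E)}
    (IHA : ∀ A' K' : Subgroup (UE 2 E), Nat.card A' < Nat.card A → Setup (p := 2) A' K' →
      ∀ b ∈ A', ∀ x ∈ K', b * x * b⁻¹ ∈ K')
    (hS : Setup (p := 2) A K) {a x₀ : UE 2 E} (ha : a ∈ A) (hx₀ : x₀ ∈ K) (hmove : a * x₀ * a⁻¹ ∉ K) :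
    False := by
  classical
  have hcos := cosets IH hS ha hx₀ hmove
  have hsq : ∀ c ∈ A, c * c = 1 := by
    intro c hc
    have := hS.bo.pow c hc
    rwa [pow_two] at this
  have hinv : ∀ c ∈ A, c⁻¹ = c := fun c hc => inv_eq_of_mul_eq_one_left (hsq c hc)
  have ha2 := hsq a ha
  have hai := hinv a ha
  have ha1 : a ≠ 1 := by
    rintro rfl
    apply hmove
    simpa using hx₀
  have hca : ∀ x ∈ K, ∀ y ∈ K, (a * x * a⁻¹) * y = y * (a * x * a⁻¹) := by
    rcases hS.hc a ha with h | h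
    · exact absurd (h x₀ hx₀) hmove
    · exact h
  haveI : Finite K := Finite.of_injective _ K.subtype_injective
  let N : Subgroup (UE 2 E) :=
    { carrier := {c | c ∈ A ∧ ∀ x ∈ K, c * x * c⁻¹ ∈ K}
      mul_mem' := by
        rintro c d ⟨hc, hc'⟩ ⟨hd, hd'⟩
        refine ⟨A.mul_mem hc hd, fun x hx => ?_⟩
        have e : (c * d) * x * (c * d)⁻¹ = c * (d * x * d⁻¹) * c⁻¹ := by group
        rw [e]
        exact hc' _ (hd' x hx)
      one_mem' := ⟨A.one_mem, fun x hx => by simpa using hx⟩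
      inv_mem' := by
        rintro c ⟨hc, hc'⟩
        show c⁻¹ ∈ A ∧ ∀ x ∈ K, c⁻¹ * x * c⁻¹⁻¹ ∈ K
        rw [hinv c hc]
        exact ⟨hc, hc'⟩ }
  have hNA : ∀ n ∈ N, n ∈ A := fun n hn => hn.1
  have hNK : ∀ n ∈ N, ∀ x ∈ K, n * x * n⁻¹ ∈ K := fun n hn => hn.2
  set φ : K →* UE 2 E := (MulAut.conj a).toMonoidHom.comp K.subtype with hφ
  have hφa : ∀ u : K, φ u = a * (u : UE 2 E) * a⁻¹ := fun u => rfl
  set K' := φ.range with hK'
  have hK'1 : ∀ x ∈ K, a * x * a⁻¹ ∈ K' := fun x hx => ⟨⟨x, hx⟩, rfl⟩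
  have hK'2 : ∀ z ∈ K', ∃ x ∈ K, z = a * x * a⁻¹ := by
    rintro _ ⟨u, rfl⟩
    exact ⟨u, u.2, rfl⟩
  have hQ' : QSL K' := by
    apply hS.qsl.range φ
    obtain ⟨x, hx, y, hy, hne⟩ := hS.qsl.noncomm
    refine ⟨⟨x, hx⟩, fun h => hne ?_⟩
    have h1 : x = 1 := by
      have : a * x * a⁻¹ = 1 := h
      have h2 : a * x = a := by rwa [mul_inv_eq_one] at this
      simpa using h2
    simp [h1]
  set M : Subgroup (UE 2 E) := K ⊔ K' with hM
  have hKM : K ≤ M := le_sup_left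
  have hK'M : K' ≤ M := le_sup_right
  have hperf : ⁅M, M⁆ = M := by
    apply le_antisymm (Subgroup.commutator_le_self M)
    apply sup_le
    · calc K = ⁅K, K⁆ := hS.qsl.perfect.symm
        _ ≤ ⁅M, M⁆ := Subgroup.commutator_mono hKM hKM
    · calc K' = ⁅K', K'⁆ := hQ'.perfect.symm
        _ ≤ ⁅M, M⁆ := Subgroup.commutator_mono hK'M hK'M
  have hKK' : ∀ x ∈ K, ∀ z ∈ K', x * z = z * x := by
    intro x hx z hz
    obtain ⟨y, hy, rfl⟩ := hK'2 z hz
    exact (hca y hy x hx).symm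
  have hcomm : ∀ c ∈ A, ∀ d ∈ A, c * d = d * c := hS.bo.comm
  set ρ := rh 2 E with hρ
  set S := comS ρ M with hSd
  -- the elements of the nontrivial coset
  have hbK : ∀ n ∈ N, ∀ x ∈ K, (a * n) * x * (a * n)⁻¹ ∈ K' := by
    intro n hn x hx
    have e : (a * n) * x * (a * n)⁻¹ = a * (n * x * n⁻¹) * a⁻¹ := by group
    rw [e]
    exact hK'1 _ (hNK n hn x hx)
  have hbK2 : ∀ n ∈ N, ∀ z ∈ K', (a * n) * z * (a * n)⁻¹ ∈ K := by
    intro n hn z hz
    obtain ⟨y, hy, rfl⟩ := hK'2 z hz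
    have e : (a * n) * (a * y * a⁻¹) * (a * n)⁻¹ = n * y * n⁻¹ := by
      rw [hcomm a ha n (hNA n hn)]
      calc n * a * (a * y * a⁻¹) * (n * a)⁻¹ = n * (a * a) * y * (a * a)⁻¹ * n⁻¹ := by group
        _ = _ := by rw [ha2]; simp
    rw [e]
    exact hNK n hn y hy
  have hbM : ∀ n ∈ N, ∀ g ∈ M, (a * n) * g * (a * n)⁻¹ ∈ M := by
    intro n hn g hg
    have hle : M ≤ M.comap (MulAut.conj (a * n)).toMonoidHom := by
      apply sup_le
      · intro x hx
        exact hK'M (hbK n hn x hx)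
      · intro z hz
        exact hKM (hbK2 n hn z hz)
    exact hle hg
  have hbS : ∀ n ∈ N, ∀ v ∈ S, ρ (a * n) v ∈ S := by
    intro n hn v hv
    have hle : S ≤ S.comap (ρ (a * n)) := by
      apply Submodule.span_le.mpr
      rintro _ ⟨g, hg, w, rfl⟩
      show ρ (a * n) (ρ g w - w) ∈ S
      have e0 : ρ ((a * n) * g * (a * n)⁻¹) (ρ (a * n) w) = ρ (a * n) (ρ g w) := by
        rw [← Module.End.mul_apply, ← map_mul, inv_mul_cancel_right, map_mul, Module.End.mul_apply]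
      have e : ρ (a * n) (ρ g w - w) = ρ ((a * n) * g * (a * n)⁻¹) (ρ (a * n) w) - ρ (a * n) w := by
        rw [map_sub, e0]
      rw [e]
      exact sub_mem_comS ρ (hbM n hn g hg) _
    exact hle hv
  have hbmv : ∀ n ∈ N, ∀ x ∈ K, ∀ y ∈ K, ((a * n) * x * (a * n)⁻¹) * y = y * ((a * n) * x * (a * n)⁻¹) := by
    intro n hn
    rcases hS.hc (a * n) (A.mul_mem ha (hNA n hn)) with h | h
    · exfalso
      apply hmove
      have h1 := h _ (hNK n⁻¹ (N.inv_mem hn) x₀ hx₀)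
      have e : (a * n) * (n⁻¹ * x₀ * n⁻¹⁻¹) * (a * n)⁻¹ = a * x₀ * a⁻¹ := by group
      rwa [e] at h1
    · exact h
  have hb2 : ∀ n ∈ N, (a * n) * (a * n) = 1 := fun n hn => hsq _ (A.mul_mem ha (hNA n hn))
  set Ws : N → Submodule (ZMod 2) S := fun n =>
    (LinearMap.ker (ρ (a * (n : UE 2 E)) - 1)).comap S.subtype with hWs
  set W : Submodule (ZMod 2) S := (fixS ρ A).comap S.subtype with hW
  have hcl2 : ∀ n : N, 4 * Nat.card (Ws n) ≤ Nat.card S := fun n =>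
    claim2 hS.qsl hKM hK'M hKK' (hb2 n n.2) (hbK n n.2) (hbS n n.2) (hbmv n n.2)
  have hcl1 : ∀ n₁ n₂ : N, n₁ ≠ n₂ → Ws n₁ ⊔ Ws n₂ = ⊤ := by
    intro n₁ n₂ hne
    apply sup_eq_top_of_le
    set n : UE 2 E := (n₂ : UE 2 E) * (n₁ : UE 2 E)⁻¹ with hn
    have hnN : n ∈ N := N.mul_mem n₂.2 (N.inv_mem n₁.2)
    have hn1 : n ≠ 1 := by
      intro h
      apply hne
      apply Subtype.ext
      rw [hn, mul_inv_eq_one] at h
      exact h.symm
    -- find `q`
    obtain ⟨q, hqA, hq1, hqn, hq⟩ : ∃ q ∈ A, q ≠ 1 ∧ (∀ h ∈ K, q * h * q⁻¹ ∈ K) ∧ ∀ b ∈ A, q ∈ annSub b := by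
      rcases tim_cases IHA hS ha ha1 with h | h
      · exact ⟨n, hNA n hnN, hn1, hNK n hnN, fun b hb => h b hb n (hNA n hnN)⟩
      · exact h
    have hqc : ∃ h ∈ K, q * h * q⁻¹ ≠ h := by
      by_contra hcon
      push Not at hcon
      apply hq1
      apply no_centralizer IH hS ha hx₀ hmove hqA
      intro y hy
      have := hcon y hy
      rwa [mul_inv_eq_iff_eq_mul] at this
    have hdl : ∀ m ∈ N, ∀ x ∈ K, dl (a * m) x 2 ∈ annSub (a * m) := by
      intro m hm x hx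
      have hbA : a * m ∈ A := A.mul_mem ha (hNA m hm)
      have hHc : Hc (a * m) K 2 := Hc_of_comm (fun d hd hd2 y hy z hz => by
        obtain rfl : d = 1 := by omega
        simpa using hbmv m hm z hz y hy)
      exact dl_mem_annSub hS.qsl hHc (by rw [pow_two]; exact hb2 m hm) (by norm_num) (hcomm q hqA _ hbA)
        hqn hqc (hq _ hbA) hx
    have hnK' : ∀ z ∈ K', n * z * n⁻¹ ∈ K' := by
      intro z hz
      obtain ⟨y, hy, rfl⟩ := hK'2 z hz
      have e : n * (a * y * a⁻¹) * n⁻¹ = a * (n * y * n⁻¹) * a⁻¹ := by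
        have hna : n * a = a * n := hcomm n (hNA n hnN) a ha
        calc n * (a * y * a⁻¹) * n⁻¹ = (n * a) * y * (n * a)⁻¹ := by group
          _ = (a * n) * y * (a * n)⁻¹ := by rw [hna]
          _ = _ := by group
      rw [e]
      exact hK'1 _ (hNK n hnN y hy)
    have hnc : ∃ z ∈ K', n * z * n⁻¹ ≠ z := by
      by_contra hcon
      push Not at hcon
      apply hn1
      apply no_centralizer IH hS ha hx₀ hmove (hNA n hnN)
      intro y hy
      have h1 := hcon _ (hK'1 y hy)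
      have e : n * (a * y * a⁻¹) * n⁻¹ = a * (n * y * n⁻¹) * a⁻¹ := by
        have hna : n * a = a * n := hcomm n (hNA n hnN) a ha
        calc n * (a * y * a⁻¹) * n⁻¹ = (n * a) * y * (n * a)⁻¹ := by group
          _ = (a * n) * y * (a * n)⁻¹ := by rw [hna]
          _ = _ := by group
      rw [e] at h1
      have h2 : n * y * n⁻¹ = y := by
        have h3 : a * (n * y * n⁻¹) = a * y := mul_right_cancel h1
        exact mul_left_cancel h3
      rwa [mul_inv_eq_iff_eq_mul] at h2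
    have hbK' : ∀ z ∈ K', ∃ x ∈ K, z = (a * (n₁ : UE 2 E)) * x * (a * (n₁ : UE 2 E))⁻¹ := by
      intro z hz
      obtain ⟨y, hy, rfl⟩ := hK'2 z hz
      refine ⟨(n₁ : UE 2 E)⁻¹ * y * ((n₁ : UE 2 E)⁻¹)⁻¹, hNK _ (N.inv_mem n₁.2) y hy, ?_⟩
      group
    have hb'b : a * (n₂ : UE 2 E) = n * (a * (n₁ : UE 2 E)) := by
      rw [hn]
      calc a * (n₂ : UE 2 E) = a * ((n₂ : UE 2 E) * (n₁ : UE 2 E)⁻¹ * (n₁ : UE 2 E)) := by group
        _ = (a * ((n₂ : UE 2 E) * (n₁ : UE 2 E)⁻¹)) * (n₁ : UE 2 E) := by group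
        _ = (((n₂ : UE 2 E) * (n₁ : UE 2 E)⁻¹) * a) * (n₁ : UE 2 E) := by
            rw [hcomm a ha _ (hNA _ hnN)]
        _ = _ := by group
    exact claim1 hQ' hKM hK'M (fun D h1 h2 => sup_le h1 h2) hperf (hbK n₁ n₁.2) hbK' hb'b hnK' hnc
      (hdl n₁ n₁.2) (hdl n₂ n₂.2)
  have hcount := dual_count W Ws (by
    intro n v hv
    show ρ (a * (n : UE 2 E)) (v : E) - (v : E) = 0
    have h1 : (v : E) ∈ fixS ρ A := hv
    rw [h1 _ (A.mul_mem ha (hNA n n.2)), sub_self]) (fun i j hij => hcl1 i j hij) hcl2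
  -- the lower bound
  have hI : Nat.card S ≤ Nat.card A * Nat.card W := by
    have h1 := hS.bo.le ⊥ bot_le
    rw [fF_bot] at h1
    have h2 := card_sup_mul_card_inf_sub S (fixS ρ A)
    have h3 : Nat.card ↥(S ⊔ fixS ρ A) ≤ Nat.card E :=
      Nat.card_le_card_of_injective (fun v : ↥(S ⊔ fixS ρ A) => (v : E)) Subtype.val_injective
    have h4 : Nat.card ↥(S ⊓ fixS ρ A) = Nat.card W := by
      apply Nat.card_congr
      exact
        { toFun := fun v => ⟨⟨v.1, v.2.1⟩, v.2.2⟩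
          invFun := fun v => ⟨v.1.1, ⟨v.1.2, v.2⟩⟩
          left_inv := fun v => rfl
          right_inv := fun v => rfl }
    rw [h4] at h2
    have h5 : 0 < Nat.card (fixS ρ A) := Nat.card_pos
    have h6 : Nat.card S * Nat.card (fixS ρ A) ≤ (Nat.card A * Nat.card W) * Nat.card (fixS ρ A) := by
      rw [← h2]
      calc Nat.card ↥(S ⊔ fixS ρ A) * Nat.card W ≤ Nat.card E * Nat.card W := Nat.mul_le_mul_right _ h3
        _ ≤ (Nat.card A * Nat.card (fixS ρ A)) * Nat.card W := Nat.mul_le_mul_right _ h1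
        _ = _ := by ring
    exact Nat.le_of_mul_le_mul_right h6 h5
  have hA2 : Nat.card A ≤ Nat.card N * 2 := by
    let f : N × Bool → A := fun p =>
      if p.2 then ⟨a * p.1, A.mul_mem ha (hNA _ p.1.2)⟩ else ⟨p.1, hNA _ p.1.2⟩
    have hf : Function.Surjective f := by
      rintro ⟨c, hc⟩
      rcases hcos c hc with h | h
      · exact ⟨(⟨c, hc, h⟩, false), rfl⟩
      · refine ⟨(⟨a * c, A.mul_mem ha hc, h⟩, true), ?_⟩
        apply Subtype.ext
        show a * (a * c) = c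
        rw [← mul_assoc, ha2, one_mul]
    have h3 := Nat.card_le_card_of_surjective f hf
    simpa [Nat.card_prod] using h3
  have hW0 : 0 < Nat.card W := Nat.card_pos
  have hfin : (1 + 3 * Nat.card N) * Nat.card W ≤ (Nat.card N * 2) * Nat.card W :=
    hcount.trans (hI.trans (Nat.mul_le_mul_right _ hA2))
  have := Nat.le_of_mul_le_mul_right hfin hW0
  omega

end Cfsg.Agent.Lib.BestOffTwoC
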