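/-
The P(G,V)-theorem: a best offender on a faithful module normalizes every component.
-/
import Mathlib
import Cfsg.Agent.Lib.BestOffTwoC

set_option autoImplicit false
set_option linter.unusedSectionVars false

namespace Cfsg.Agent.Lib.BestOffMain

open Cfsg.Agent.Lib.BestOffR Cfsg.Agent.Lib.BestOffCom Cfsg.Agent.Lib.BestOffTwoC

universe u

/-- **The main induction.** -/
theorem main_T {p : ℕ} [hp : Fact p.Prime] : ∀ (n : ℕ) (E : Type u) [AddCommGroup E] [Module (ZMod p) E]
    [Finite E], Nat.card E = n → ∀ (m : ℕ) (A K : Subgroup (UE p E)), Nat.card A = m →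
      Setup (p := p) A K → ∀ b ∈ A, ∀ x ∈ K, b * x * b⁻¹ ∈ K := by
  intro n
  induction n using Nat.strong_induction_on with
  | _ n ihn =>
    intro E _ _ _ hE m
    induction m using Nat.strong_induction_on with
    | _ m ihm =>
      intro A K hA hS a ha x hx
      by_contra hmove
      have IH : ∀ (E' : Type u) [AddCommGroup E'] [Module (ZMod p) E'] [Finite E'],
          Nat.card E' < Nat.card E → ∀ A' K' : Subgroup (UE p E'), Setup (p := p) A' K' →
            ∀ b ∈ A', ∀ x ∈ K', b * x * b⁻¹ ∈ K' := by
        intro E' _ _ _ h A' K' hS'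
        exact ihn _ (hE ▸ h) E' rfl _ A' K' rfl hS'
      have IHA : ∀ A' K' : Subgroup (UE p E), Nat.card A' < Nat.card A → Setup (p := p) A' K' →
          ∀ b ∈ A', ∀ x ∈ K', b * x * b⁻¹ ∈ K' := by
        intro A' K' h hS'
        exact ihm _ (hA ▸ h) A' K' rfl hS'
      by_cases hp2 : p = 2
      · subst hp2
        exact step_two IH IHA hS ha hx hmove
      · exact step_odd IH IHA hp2 hS ha hx hmove

end Cfsg.Agent.Lib.BestOffMain
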