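import Mathlib

/-!
Binary linear groups: basic tools.  `V` is a finite abelian group, `Γ` acts on it faithfully by additive
maps, `K ≤ Γ`.  `Bin V K` says `K`-orbits of tuples are determined by the pairs of entries.
-/

set_option autoImplicit false

namespace Cfsg.Agent.BinAff

variable (V : Type*) {Γ : Type*} [AddCommGroup V] [Group Γ] [DistribMulAction Γ V]

/-- binary property of a subgroup acting linearly -/
def Bin (K : Subgroup Γ) : Prop :=
  ∀ (n : ℕ) (a b : Fin n → V),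
    (∀ i j, ∃ h ∈ K, h • (a i - a j) = b i - b j) →
    (∀ i, ∃ h ∈ K, h • a i = b i) → ∃ h ∈ K, ∀ i, h • a i = b i

variable {V}

/-- fixed points -/
def W (t : Γ) : AddSubgroup V where
  carrier := {v | t • v = v}
  add_mem' := by
    intro a b ha hb
    simp only [Set.mem_setOf_eq] at *
    rw [smul_add, ha, hb]
  zero_mem' := by simp
  neg_mem' := by
    intro a ha
    simp only [Set.mem_setOf_eq] at *
    rw [smul_neg, ha]

/-- commutator range -/
def U (t : Γ) : AddSubgroup V where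
  carrier := {x | ∃ y, t • y - y = x}
  add_mem' := by
    rintro _ _ ⟨a, rfl⟩ ⟨b, rfl⟩
    exact ⟨a + b, by rw [smul_add]; abel⟩
  zero_mem' := ⟨0, by simp⟩
  neg_mem' := by
    rintro _ ⟨a, rfl⟩
    exact ⟨-a, by rw [smul_neg]; abel⟩

@[simp] theorem mem_W {t : Γ} {v : V} : v ∈ (W t : AddSubgroup V) ↔ t • v = v := Iff.rfl
@[simp] theorem mem_U {t : Γ} {x : V} : x ∈ (U t : AddSubgroup V) ↔ ∃ y, t • y - y = x := Iff.rfl

theorem dm_mem_U (t : Γ) (y : V) : t • y - y ∈ (U t : AddSubgroup V) := ⟨y, rfl⟩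

/-- pointwise stabilizer inside `K` -/
def Fx (K : Subgroup Γ) (S : Set V) : Subgroup Γ where
  carrier := {g | g ∈ K ∧ ∀ v ∈ S, g • v = v}
  mul_mem' := by
    rintro a b ⟨ha, ha'⟩ ⟨hb, hb'⟩
    refine ⟨K.mul_mem ha hb, fun v hv => ?_⟩
    rw [mul_smul, hb' v hv, ha' v hv]
  one_mem' := ⟨K.one_mem, fun v _ => one_smul _ v⟩
  inv_mem' := by
    rintro a ⟨ha, ha'⟩
    refine ⟨K.inv_mem ha, fun v hv => ?_⟩
    rw [inv_smul_eq_iff, ha' v hv]

@[simp] theorem mem_Fx {K : Subgroup Γ} {S : Set V} {g : Γ} :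
    g ∈ Fx K S ↔ g ∈ K ∧ ∀ v ∈ S, g • v = v := Iff.rfl

theorem Fx_le (K : Subgroup Γ) (S : Set V) : Fx K S ≤ K := fun _ h => h.1

section fam
variable {K : Subgroup Γ}

theorem Bin.fam (hK : Bin V K) {ι : Type*} [Finite ι] (a b : ι → V)
    (h1 : ∀ i j, ∃ h ∈ K, h • (a i - a j) = b i - b j)
    (h2 : ∀ i, ∃ h ∈ K, h • a i = b i) : ∃ h ∈ K, ∀ i, h • a i = b i := by
  obtain ⟨n, ⟨e⟩⟩ := Finite.exists_equiv_fin ι
  obtain ⟨h, hh, hi⟩ := hK n (a ∘ e.symm) (b ∘ e.symm) (fun i j => h1 _ _) (fun i => h2 _)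
  refine ⟨h, hh, fun i => ?_⟩
  simpa using hi (e i)

theorem Bin.two (hK : Bin V K) {a₁ a₂ b₁ b₂ : V}
    (h1 : ∃ h ∈ K, h • a₁ = b₁) (h2 : ∃ h ∈ K, h • a₂ = b₂)
    (h3 : ∃ h ∈ K, h • (a₁ - a₂) = b₁ - b₂) : ∃ h ∈ K, h • a₁ = b₁ ∧ h • a₂ = b₂ := by
  obtain ⟨h, hh, hi⟩ := hK.fam (ι := Bool) (fun i => cond i a₁ a₂) (fun i => cond i b₁ b₂)
    (by
      intro i j
      cases i <;> cases j
      · exact ⟨1, K.one_mem, by simp⟩
      · obtain ⟨h, hh, e⟩ := h3
        refine ⟨h, hh, ?_⟩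
        simp only [cond_false, cond_true]
        rw [← neg_sub a₁ a₂, smul_neg, e, neg_sub]
      · exact h3
      · exact ⟨1, K.one_mem, by simp⟩)
    (by
      intro i
      cases i
      · exact h2
      · exact h1)
  exact ⟨h, hh, by simpa using hi true, by simpa using hi false⟩

/-- heredity -/
theorem Bin.fx (hK : Bin V K) [Finite V] (S : Set V) : Bin V (Fx K S) := by
  intro n a b h1 h2
  obtain ⟨h, hh, hi⟩ := hK.fam (ι := Fin n ⊕ S) (Sum.elim a (fun s => (s : V)))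
    (Sum.elim b (fun s => (s : V)))
    (by
      rintro (i | s) (j | s')
      · obtain ⟨h, hh, e⟩ := h1 i j
        exact ⟨h, hh.1, e⟩
      · obtain ⟨h, hh, e⟩ := h2 i
        refine ⟨h, hh.1, ?_⟩
        simp only [Sum.elim_inl, Sum.elim_inr]
        rw [smul_sub, e, hh.2 _ s'.2]
      · obtain ⟨h, hh, e⟩ := h2 j
        refine ⟨h, hh.1, ?_⟩
        simp only [Sum.elim_inl, Sum.elim_inr]
        rw [smul_sub, e, hh.2 _ s.2]
      · exact ⟨1, K.one_mem, by simp⟩)
    (by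
      rintro (i | s)
      · obtain ⟨h, hh, e⟩ := h2 i
        exact ⟨h, hh.1, e⟩
      · exact ⟨1, K.one_mem, by simp⟩)
  refine ⟨h, ⟨hh, fun v hv => ?_⟩, fun i => hi (Sum.inl i)⟩
  exact hi (Sum.inr ⟨v, hv⟩)

/-- swapping a point with a point of its orbit -/
theorem swap (hK : Bin V K) {h : Γ} (hh : h ∈ K) (y : V) :
    ∃ g ∈ K, g • y = h • y ∧ g • (h • y) = y := by
  obtain ⟨g, hg, e1, e2⟩ := hK.two (a₁ := y) (b₁ := h • y) (a₂ := y + h • y) (b₂ := y + h • y)
    ⟨h, hh, rfl⟩ ⟨1, K.one_mem, one_smul _ _⟩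
    ⟨h⁻¹, K.inv_mem hh, by
      have : y - (y + h • y) = -(h • y) := by abel
      rw [this, smul_neg, inv_smul_smul]
      abel⟩
  refine ⟨g, hg, e1, ?_⟩
  rw [smul_add, e1] at e2
  grind

/-- the Kantor-type lemma: one element does all the translations by `x` that exist -/
theorem kl (hK : Bin V K) [Finite V] (x : V) :
    ∃ h ∈ K, ∀ y, (∃ g ∈ K, g • y = y + x) → h • y = y + x := by
  obtain ⟨h, hh, hi⟩ := hK.fam (ι := {y : V // ∃ g ∈ K, g • y = y + x}) (fun s => (s : V))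
    (fun s => (s : V) + x)
    (by
      intro i j
      exact ⟨1, K.one_mem, by rw [one_smul]; abel⟩)
    (by
      intro i
      exact i.2)
  exact ⟨h, hh, fun y hy => hi ⟨y, hy⟩⟩

/-- a regular vector forces exponent two -/
theorem reg (hK : Bin V K) {z : V} (hz : ∀ g ∈ K, g • z = z → g = 1) : ∀ h ∈ K, h * h = 1 := by
  intro h hh
  obtain ⟨g, hg, e1, e2⟩ := swap hK hh z
  have h1 : h⁻¹ * g = 1 := hz _ (K.mul_mem (K.inv_mem hh) hg) (by rw [mul_smul, e1, inv_smul_smul])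
  have h2 : g = h := by
    have := inv_mul_eq_one.mp h1
    exact this.symm
  subst h2
  exact hz _ (K.mul_mem hh hh) (by rw [mul_smul]; exact e2)

/-- the rule at a vector with stabilizer of order two -/
theorem rule (hK : Bin V K) {z : V} {φ : Γ} (hφ2 : φ * φ = 1)
    (hz : ∀ g ∈ K, g • z = z → g = 1 ∨ g = φ) :
    ∀ h ∈ K, h * h = 1 ∨ h * h = φ ∨ φ * h * φ = h⁻¹ := by
  intro h hh
  obtain ⟨g, hg, e1, e2⟩ := swap hK hh z
  have h1 := hz _ (K.mul_mem (K.inv_mem hh) hg) (by rw [mul_smul, e1, inv_smul_smul])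
  rcases h1 with h1 | h1
  · have h2 : g = h := (inv_mul_eq_one.mp h1).symm
    subst h2
    have := hz _ (K.mul_mem hh hh) (by rw [mul_smul]; exact e2)
    rcases this with h3 | h3
    · exact Or.inl h3
    · exact Or.inr (Or.inl h3)
  · have h2 : g = h * φ := by
      rw [← h1]; group
    subst h2
    -- now `h φ h` fixes `z`
    have h3 : (h * φ * h) • z = z := by rw [mul_smul]; exact e2
    rcases hz _ (K.mul_mem hg hh) h3 with h4 | h4
    · -- h φ h = 1, so h h = φ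
      right; left
      have hφ : φ⁻¹ = φ := inv_eq_of_mul_eq_one_left hφ2
      have : φ = h⁻¹ * h⁻¹ := by
        have : h * φ * h = 1 := h4
        calc φ = h⁻¹ * (h * φ * h) * h⁻¹ := by group
          _ = h⁻¹ * h⁻¹ := by rw [this]; group
      have h5 : h * h = φ⁻¹ := by rw [this, _root_.mul_inv_rev, inv_inv]
      rw [h5, hφ]
    · right; right
      have : h * φ * h = φ := h4
      have hφ : φ⁻¹ = φ := inv_eq_of_mul_eq_one_left hφ2
      calc φ * h * φ = h⁻¹ * (h * φ * h) * φ := by group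
        _ = h⁻¹ * (φ * φ) := by rw [this]; group
        _ = h⁻¹ := by rw [hφ2]; group

end fam

/-! ### Roots -/

variable (V) in
/-- a root: nontrivial element of `K` with maximal fixed points -/
structure IsRt (K : Subgroup Γ) (t : Γ) : Prop where
  mem : t ∈ K
  ne : t ≠ 1
  max : ∀ g ∈ K, g ≠ 1 → (∀ v : V, t • v = v → g • v = v) → ∀ v : V, g • v = v → t • v = v

section roots
variable {K : Subgroup Γ} [Finite V]

theorem exists_root {g : Γ} (hg : g ∈ K) (h1 : g ≠ 1) :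
    ∃ t, IsRt V K t ∧ ∀ v : V, g • v = v → t • v = v := by
  let F : Set (Set V) := {S | ∃ t ∈ K, t ≠ 1 ∧ S = {v : V | t • v = v} ∧ ∀ v : V, g • v = v → t • v = v}
  have hF : F.Finite := Set.toFinite F
  have hne : F.Nonempty := ⟨_, g, hg, h1, rfl, fun _ h => h⟩
  obtain ⟨S, hS⟩ := hF.exists_maximal hne
  obtain ⟨t, ht, ht1, rfl, hgt⟩ := hS.1
  refine ⟨t, ⟨ht, ht1, ?_⟩, hgt⟩
  intro g' hg' hg'1 hle v hv
  have : ({v : V | g' • v = v} : Set V) ∈ F :=
    ⟨g', hg', hg'1, rfl, fun v hv => hle v (hgt v hv)⟩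
  have := hS.2 this (fun v hv => hle v hv)
  exact this hv

variable [FaithfulSMul Γ V]

theorem exists_moved {t : Γ} (h : t ≠ 1) : ∃ z : V, t • z ≠ z := by
  by_contra hc
  push Not at hc
  exact h (FaithfulSMul.eq_of_smul_eq_smul (fun v => by rw [hc v, one_smul]))

omit [Finite V] [FaithfulSMul Γ V] in
/-- elements with fixed points containing those of a root have the same fixed points -/
theorem IsRt.fix_eq {t g : Γ} (ht : IsRt V K t) (hg : g ∈ K) (h1 : g ≠ 1)
    (hle : ∀ v : V, t • v = v → g • v = v) (v : V) : g • v = v ↔ t • v = v :=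
  ⟨ht.max g hg h1 hle v, hle v⟩

omit [FaithfulSMul Γ V] in
/-- root of a pointwise stabilizer -/
theorem IsRt.fx {t : Γ} {S : Set V} (ht : IsRt V K t) (hS : ∀ v ∈ S, t • v = v) :
    IsRt V (Fx K S) t :=
  ⟨⟨ht.mem, hS⟩, ht.ne, fun g hg h1 hle v hv => ht.max g hg.1 h1 hle v hv⟩

omit [FaithfulSMul Γ V] in
/-- a root of a pointwise stabilizer is a root -/
theorem IsRt.of_fx {t : Γ} {S : Set V} (ht : IsRt V (Fx K S) t) : IsRt V K t := by
  refine ⟨ht.mem.1, ht.ne, fun g hg h1 hle v hv => ?_⟩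
  refine ht.max g ⟨hg, fun u hu => hle u (ht.mem.2 u hu)⟩ h1 hle v hv

/-- elements fixing the fixed points of a root square to one -/
theorem IsRt.exp (hK : Bin V K) {t : Γ} (ht : IsRt V K t) :
    ∀ g ∈ Fx K ((W t : AddSubgroup V) : Set V), g * g = 1 := by
  obtain ⟨z, hz⟩ := exists_moved (V := V) ht.ne
  refine reg (z := z) (hK.fx _) ?_
  intro g hg hgz
  by_contra h1
  exact hz (ht.max g hg.1 h1 (fun v hv => hg.2 v hv) z hgz)

theorem IsRt.sq (hK : Bin V K) {t : Γ} (ht : IsRt V K t) : t * t = 1 :=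
  ht.exp hK t ⟨ht.mem, fun _ hv => hv⟩

theorem IsRt.inv (hK : Bin V K) {t : Γ} (ht : IsRt V K t) : t⁻¹ = t :=
  inv_eq_of_mul_eq_one_left (ht.sq hK)

theorem IsRt.smul_smul (hK : Bin V K) {t : Γ} (ht : IsRt V K t) (v : V) : t • t • v = v := by
  rw [← mul_smul, ht.sq hK, one_smul]

/-- a root negates its commutator range -/
theorem IsRt.neg (hK : Bin V K) {t : Γ} (ht : IsRt V K t) {u : V} (hu : u ∈ (U t : AddSubgroup V)) :
    t • u = -u := by
  obtain ⟨y, rfl⟩ := hu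
  rw [smul_sub, ht.smul_smul hK]
  abel

/-- R1 -/
theorem R1 (hK : Bin V K) {t : Γ} (ht : IsRt V K t) {y₀ y x : V} (hx : x ≠ 0)
    (h0 : t • y₀ - y₀ = x) {g : Γ} (hg : g ∈ K) (hy : g • y = y + x) : t • y = y + x := by
  obtain ⟨h, hh, hh'⟩ := kl hK x
  have e0 : h • y₀ = y₀ + x := hh' _ ⟨t, ht.mem, by grind⟩
  have e1 : h • y = y + x := hh' _ ⟨g, hg, hy⟩
  have hfix : ∀ w : V, t • w = w → h • w = w := by
    intro w hw
    have := hh' (y₀ + w) ⟨t, ht.mem, by rw [smul_add, hw]; grind⟩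
    rw [smul_add, e0] at this
    grind
  have hne : h ≠ 1 := by
    rintro rfl
    rw [one_smul] at e0
    apply hx
    grind
  have := ht.max h hh hne hfix (y - y₀) (by rw [smul_sub, e0, e1]; abel)
  rw [smul_sub] at this
  grind

/-- R2: the commutator ranges of distinct roots intersect trivially -/
theorem R2 (hK : Bin V K) {s t : Γ} (hs : IsRt V K s) (ht : IsRt V K t) {x : V} (hx : x ≠ 0)
    (h1 : x ∈ (U s : AddSubgroup V)) (h2 : x ∈ (U t : AddSubgroup V)) : s = t := by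
  obtain ⟨y₁, hy₁⟩ := h1
  obtain ⟨y₀, hy₀⟩ := h2
  have e1 : t • y₁ = y₁ + x := R1 hK ht hx hy₀ hs.mem (by grind)
  have hWs : ∀ w : V, s • w = w → t • w = w := by
    intro w hw
    have := R1 hK ht hx hy₀ hs.mem (y := y₁ + w) (by rw [smul_add, hw]; grind)
    rw [smul_add, e1] at this
    grind
  have hneg : t • x = -x := ht.neg hK ⟨y₀, hy₀⟩
  -- `t s` fixes `W t`? we show it fixes `W s` and `y₁`
  by_contra hne
  have hmem : t * s ∈ K := K.mul_mem ht.mem hs.mem
  have hts1 : t * s ≠ 1 := by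
    intro h
    apply hne
    have := ht.sq hK
    calc s = (t * t) * s := by rw [this, one_mul]
      _ = t * (t * s) := by rw [mul_assoc]
      _ = t := by rw [h, mul_one]
  have hWt : ∀ w : V, t • w = w → s • w = w := by
    intro w hw
    have e2 : s • y₀ = y₀ + x := R1 hK hs hx hy₁ ht.mem (by grind)
    have := R1 hK hs hx hy₁ ht.mem (y := y₀ + w) (by rw [smul_add, hw]; grind)
    rw [smul_add, e2] at this
    grind
  have hfix : (t * s) • y₁ = y₁ := by
    rw [mul_smul]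
    have : s • y₁ = y₁ + x := by grind
    rw [this, smul_add, e1, hneg]
    abel
  have := ht.max (t * s) hmem hts1 (fun v hv => by rw [mul_smul, hWt v hv, hv]) y₁ hfix
  apply hx
  grind

end roots

end Cfsg.Agent.BinAff
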