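import Cfsg.Agent.Lib.BinA

/-! Binary linear groups: conjugates of roots, signs, sizes. -/

set_option autoImplicit false

namespace Cfsg.Agent.BinAff

variable {V Γ : Type*} [AddCommGroup V] [Group Γ] [DistribMulAction Γ V]

section gen

theorem smul_mem_U_conj (t g : Γ) {u : V} (hu : u ∈ (U t : AddSubgroup V)) :
    g • u ∈ (U (g * t * g⁻¹) : AddSubgroup V) := by
  obtain ⟨y, rfl⟩ := hu
  exact ⟨g • y, by simp [mul_smul, smul_sub]⟩

theorem smul_mem_W_conj (t g : Γ) {v : V} (hv : v ∈ (W t : AddSubgroup V)) :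
    g • v ∈ (W (g * t * g⁻¹) : AddSubgroup V) := by
  have : t • v = v := hv
  show (g * t * g⁻¹) • g • v = g • v
  simp [mul_smul, this]

/-- double map as a homomorphism -/
def dmHom (t : Γ) : V →+ V where
  toFun v := t • v - v
  map_zero' := by simp
  map_add' a b := by rw [smul_add]; abel

theorem card_W_mul_U [Finite V] (t : Γ) :
    Nat.card (W t : AddSubgroup V) * Nat.card (U t : AddSubgroup V) = Nat.card V := by
  have h1 : (W t : AddSubgroup V) = (dmHom t : V →+ V).ker := by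
    ext v
    simp [dmHom, AddMonoidHom.mem_ker, sub_eq_zero]
  have h2 : (U t : AddSubgroup V) = (dmHom t : V →+ V).range := by
    ext v
    simp [dmHom, AddMonoidHom.mem_range]
  rw [h1, h2, ← AddSubgroup.index_ker]
  exact AddSubgroup.card_mul_index _

theorem card_sup_le [Finite V] (A B : AddSubgroup V) :
    Nat.card (A ⊔ B : AddSubgroup V) ≤ Nat.card A * Nat.card B := by
  rw [← Nat.card_prod]
  refine Nat.card_le_card_of_surjective
    (fun p : A × B => (⟨(p.1 : V) + p.2, AddSubgroup.add_mem_sup p.1.2 p.2.2⟩ :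
      (A ⊔ B : AddSubgroup V))) ?_
  rintro ⟨x, hx⟩
  obtain ⟨a, ha, b, hb, rfl⟩ := AddSubgroup.mem_sup.mp hx
  exact ⟨(⟨a, ha⟩, ⟨b, hb⟩), rfl⟩

theorem card_mul_le_of_inf [Finite V] {A B C : AddSubgroup V} (hAC : A ≤ C) (hBC : B ≤ C)
    (hd : ∀ x, x ∈ A → x ∈ B → x = 0) :
    Nat.card A * Nat.card B ≤ Nat.card C := by
  rw [← Nat.card_prod]
  refine Nat.card_le_card_of_injective
    (fun p : A × B => (⟨(p.1 : V) + p.2, C.add_mem (hAC p.1.2) (hBC p.2.2)⟩ : C)) ?_
  rintro ⟨⟨a, ha⟩, ⟨b, hb⟩⟩ ⟨⟨a', ha'⟩, ⟨b', hb'⟩⟩ h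
  have h1 : a + b = a' + b' := congrArg Subtype.val h
  have h2 : a - a' = 0 := hd _ (A.sub_mem ha ha') (by
    have : a - a' = b' - b := by grind
    rw [this]; exact B.sub_mem hb' hb)
  have h3 : a = a' := sub_eq_zero.mp h2
  have h4 : b = b' := by grind
  subst h3 h4
  rfl

theorem card_sup_eq [Finite V] (A B : AddSubgroup V) (hd : ∀ x, x ∈ A → x ∈ B → x = 0) :
    Nat.card (A ⊔ B : AddSubgroup V) = Nat.card A * Nat.card B :=
  le_antisymm (card_sup_le A B) (card_mul_le_of_inf le_sup_left le_sup_right hd)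

theorem eq_of_le_of_card_le [Finite V] {A B : AddSubgroup V} (h : A ≤ B)
    (hc : Nat.card B ≤ Nat.card A) : A = B := by
  refine SetLike.coe_injective ?_
  apply Set.eq_of_subset_of_ncard_le h _ (Set.toFinite _)
  rw [← Nat.card_coe_set_eq, ← Nat.card_coe_set_eq]
  exact hc

theorem exists_half [Finite V] (hodd : ∀ v : V, v + v = 0 → v = 0) (v : V) : ∃ y, y + y = v := by
  have hinj : Function.Injective (fun v : V => v + v) := by
    intro a b hab
    have hab' : a + a = b + b := hab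
    exact sub_eq_zero.mp (hodd _ (by grind))
  exact (Finite.injective_iff_surjective.mp hinj) v

theorem dbl_inj (hodd : ∀ v : V, v + v = 0 → v = 0) {a b : V} (h : a + a = b + b) : a = b :=
  sub_eq_zero.mp (hodd _ (by grind))

/-- in odd characteristic negated vectors are commutators -/
theorem mem_U_of_neg [Finite V] (hodd : ∀ v : V, v + v = 0 → v = 0) {t : Γ} {u : V}
    (h : t • u = -u) : u ∈ (U t : AddSubgroup V) := by
  obtain ⟨y, rfl⟩ := exists_half hodd u
  have h1 : t • y + t • y = (-y) + (-y) := by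
    rw [← smul_add, h]; abel
  have h2 : t • y = -y := dbl_inj hodd h1
  exact ⟨-y, by rw [smul_neg, h2]; abel⟩

end gen

section roots
variable {K : Subgroup Γ} [Finite V] [FaithfulSMul Γ V]

theorem U_exists_ne {t : Γ} (h : t ≠ 1) : ∃ u ∈ (U t : AddSubgroup V), u ≠ 0 := by
  obtain ⟨z, hz⟩ := exists_moved (V := V) h
  exact ⟨t • z - z, dm_mem_U t z, sub_ne_zero.mpr hz⟩

omit [Finite V] [FaithfulSMul Γ V] in
theorem IsRt.conj {t g : Γ} (ht : IsRt V K t) (hg : g ∈ K) : IsRt V K (g * t * g⁻¹) := by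
  refine ⟨K.mul_mem (K.mul_mem hg ht.mem) (K.inv_mem hg), ?_, ?_⟩
  · intro h
    apply ht.ne
    have : g⁻¹ * (g * t * g⁻¹) * g = 1 := by rw [h]; group
    rw [← this]; group
  · intro g' hg' h1 hle v hv
    have h2 : g⁻¹ * g' * g ∈ K := K.mul_mem (K.mul_mem (K.inv_mem hg) hg') hg
    have h3 : g⁻¹ * g' * g ≠ 1 := by
      intro h
      apply h1
      have : g * (g⁻¹ * g' * g) * g⁻¹ = 1 := by rw [h]; group
      rw [← this]; group
    have h4 := ht.max _ h2 h3 (by
      intro w hw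
      have : (g * t * g⁻¹) • (g • w) = g • w := by simp [mul_smul, hw]
      have := hle _ this
      simp [mul_smul, this]) (g⁻¹ • v) (by simp [mul_smul, hv])
    simp [mul_smul, h4]

theorem comm_of_mem (hK : Bin V K) {t g : Γ} (ht : IsRt V K t) (hg : g ∈ K) {u : V}
    (hu : u ∈ (U t : AddSubgroup V)) (h0 : u ≠ 0) (h : g • u ∈ (U t : AddSubgroup V)) :
    g * t = t * g := by
  have h1 : g * t * g⁻¹ = t :=
    R2 hK (ht.conj hg) ht (x := g • u) (fun h' => h0 (by simpa using congrArg (fun x => g⁻¹ • x) h')) (smul_mem_U_conj t g hu) h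
  calc g * t = g * t * g⁻¹ * g := by group
    _ = t * g := by rw [h1]

theorem sign_of_mem (hK : Bin V K) {t g : Γ} (ht : IsRt V K t) (hg : g ∈ K) {u : V}
    (hu : u ∈ (U t : AddSubgroup V)) (h : g • u ∈ (U t : AddSubgroup V)) :
    g • u = u ∨ g • u = -u := by
  by_cases hx : g • u - u = 0
  · exact Or.inl (sub_eq_zero.mp hx)
  · right
    obtain ⟨y₀, hy₀⟩ := (U t : AddSubgroup V).sub_mem h hu
    have := R1 hK ht hx hy₀ hg (y := u) (by abel)
    rw [ht.neg hK hu] at this
    grind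

omit [Finite V] [FaithfulSMul Γ V] in
theorem smul_mem_U_of_comm {t g : Γ} (hc : g * t = t * g) {u : V}
    (hu : u ∈ (U t : AddSubgroup V)) : g • u ∈ (U t : AddSubgroup V) := by
  obtain ⟨y, rfl⟩ := hu
  refine ⟨g • y, ?_⟩
  rw [← mul_smul, ← hc, mul_smul, smul_sub]

omit [Finite V] [FaithfulSMul Γ V] in
theorem smul_mem_W_of_comm {t g : Γ} (hc : g * t = t * g) {u : V}
    (hu : u ∈ (W t : AddSubgroup V)) : g • u ∈ (W t : AddSubgroup V) := by
  have h : t • u = u := hu
  show t • g • u = g • u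
  rw [← mul_smul, ← hc, mul_smul, h]

theorem comm_of_fix (hK : Bin V K) {t g : Γ} (ht : IsRt V K t) (hg : g ∈ K) {u : V}
    (hu : u ∈ (U t : AddSubgroup V)) (h0 : u ≠ 0) (h : g • u = u) : g * t = t * g :=
  comm_of_mem hK ht hg hu h0 (by rw [h]; exact hu)

theorem comm_of_neg (hK : Bin V K) {t g : Γ} (ht : IsRt V K t) (hg : g ∈ K) {u : V}
    (hu : u ∈ (U t : AddSubgroup V)) (h0 : u ≠ 0) (h : g • u = -u) : g * t = t * g :=
  comm_of_mem hK ht hg hu h0 (by rw [h]; exact (U t : AddSubgroup V).neg_mem hu)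

/-- parity of `V` -/
def Par (V : Type*) [AddCommGroup V] : Prop := (∀ v : V, v + v = 0) ∨ (∀ v : V, v + v = 0 → v = 0)

/-- commuting distinct roots fix each other's commutator ranges -/
theorem comm_fix (hK : Bin V K) (hpar : Par V) {s t : Γ} (hs : IsRt V K s) (ht : IsRt V K t)
    (hne : s ≠ t) (hc : t * s = s * t) {u : V} (hu : u ∈ (U s : AddSubgroup V)) : t • u = u := by
  rcases sign_of_mem hK hs ht.mem hu (smul_mem_U_of_comm hc hu) with h | h
  · exact h
  · rcases hpar with h2 | h2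
    · rw [h]
      have := h2 u
      grind
    · by_contra hne'
      have h0 : u ≠ 0 := by
        rintro rfl
        simp at hne'
      exact hne (R2 hK hs ht h0 hu (mem_U_of_neg h2 h))

/-- no nonzero commutator vector of `s` is fixed by a noncommuting root `t` -/
theorem noncomm_fix (hK : Bin V K) {s t : Γ} (hs : IsRt V K s) (ht : IsRt V K t)
    (hnc : s * t ≠ t * s) {u : V} (hu : u ∈ (U s : AddSubgroup V)) (h : t • u = u) : u = 0 := by
  by_contra h0
  exact hnc (comm_of_fix hK hs ht.mem hu h0 h).symm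

theorem card_U_le (hK : Bin V K) {s t : Γ} (hs : IsRt V K s) (ht : IsRt V K t)
    (hnc : s * t ≠ t * s) :
    Nat.card (U s : AddSubgroup V) ≤ Nat.card (U t : AddSubgroup V) := by
  refine Nat.card_le_card_of_injective
    (fun u : (U s : AddSubgroup V) => (⟨t • (u : V) - u, dm_mem_U t _⟩ : (U t : AddSubgroup V))) ?_
  rintro ⟨a, ha⟩ ⟨b, hb⟩ h
  have h1 : t • a - a = t • b - b := congrArg Subtype.val h
  have h2 : a - b = 0 := noncomm_fix hK hs ht hnc ((U s : AddSubgroup V).sub_mem ha hb)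
    (by rw [smul_sub]; grind)
  exact Subtype.ext (sub_eq_zero.mp h2)

theorem card_U_eq (hK : Bin V K) {s t : Γ} (hs : IsRt V K s) (ht : IsRt V K t)
    (hnc : s * t ≠ t * s) :
    Nat.card (U s : AddSubgroup V) = Nat.card (U t : AddSubgroup V) :=
  le_antisymm (card_U_le hK hs ht hnc) (card_U_le hK ht hs (Ne.symm hnc))

/-- `t - 1` maps `U s` onto `U t` for noncommuting roots -/
theorem dm_surj (hK : Bin V K) {s t : Γ} (hs : IsRt V K s) (ht : IsRt V K t)
    (hnc : s * t ≠ t * s) {v : V} (hv : v ∈ (U t : AddSubgroup V)) :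
    ∃ u ∈ (U s : AddSubgroup V), t • u - u = v := by
  have hinj : Function.Injective
      (fun u : (U s : AddSubgroup V) => (⟨t • (u : V) - u, dm_mem_U t _⟩ : (U t : AddSubgroup V))) := by
    rintro ⟨a, ha⟩ ⟨b, hb⟩ h
    have h1 : t • a - a = t • b - b := congrArg Subtype.val h
    have h2 : a - b = 0 := noncomm_fix hK hs ht hnc ((U s : AddSubgroup V).sub_mem ha hb)
      (by rw [smul_sub]; grind)
    exact Subtype.ext (sub_eq_zero.mp h2)
  have hsurj := (Function.Injective.bijective_of_nat_card_le hinj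
    (card_U_le hK ht hs (Ne.symm hnc))).2
  obtain ⟨⟨u, hu⟩, h⟩ := hsurj ⟨v, hv⟩
  exact ⟨u, hu, congrArg Subtype.val h⟩

/-- fixed points of the product of distinct roots -/
theorem fix_prod (hK : Bin V K) {s t : Γ} (hs : IsRt V K s) (ht : IsRt V K t) (hne : s ≠ t) {v : V}
    (h : (s * t) • v = v) : s • v = v ∧ t • v = v := by
  have h1 : t • v = s • v := by
    rw [mul_smul] at h
    have := congrArg (fun x => s • x) h
    simpa [hs.smul_smul hK] using this
  by_cases h0 : s • v - v = 0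
  · have h2 := sub_eq_zero.mp h0
    exact ⟨h2, by rw [h1, h2]⟩
  · exact absurd (R2 hK hs ht h0 (dm_mem_U s v) (by rw [← h1]; exact dm_mem_U t v)) hne

omit [Finite V] [FaithfulSMul Γ V] in
theorem sq_ne_of_noncomm {s t : Γ} (h1 : s * s = 1) (h2 : t * t = 1) (hnc : s * t ≠ t * s) :
    (s * t) * (s * t) ≠ 1 := by
  intro h
  apply hnc
  have hs : s⁻¹ = s := inv_eq_of_mul_eq_one_left h1
  have ht : t⁻¹ = t := inv_eq_of_mul_eq_one_left h2
  have : s * t = (s * t)⁻¹ := eq_inv_of_mul_eq_one_left h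
  rw [this, _root_.mul_inv_rev, hs, ht]

end roots

end Cfsg.Agent.BinAff
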