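import Cfsg.Agent.Lib.BinB

/-! Binary linear groups in odd characteristic: operators, lines. -/

set_option autoImplicit false

namespace Cfsg.Agent.BinAff

variable {V Γ : Type*} [AddCommGroup V] [Group Γ] [DistribMulAction Γ V]

/-- common fixed points of two elements -/
def Xs (a b : Γ) : AddSubgroup V := W a ⊓ W b
/-- sum of the two commutator ranges -/
def Es (a b : Γ) : AddSubgroup V := U a ⊔ U b

theorem mem_Xs {a b : Γ} {v : V} : v ∈ (Xs a b : AddSubgroup V) ↔ a • v = v ∧ b • v = v := Iff.rfl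

theorem mem_Es {a b : Γ} {x : V} :
    x ∈ (Es a b : AddSubgroup V) ↔ ∃ y ∈ (U a : AddSubgroup V), ∃ z ∈ (U b : AddSubgroup V), y + z = x :=
  AddSubgroup.mem_sup

theorem U_le_Es_left (a b : Γ) : (U a : AddSubgroup V) ≤ Es a b := le_sup_left
theorem U_le_Es_right (a b : Γ) : (U b : AddSubgroup V) ≤ Es a b := le_sup_right

/-- card of nonzero vectors of a subgroup -/
theorem card_filter_ne [Fintype V] [DecidableEq V] (A : AddSubgroup V) [DecidablePred (· ∈ A)] :
    (Finset.univ.filter (fun v : V => v ∈ A ∧ v ≠ 0)).card = Nat.card A - 1 := by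
  have h1 : (Finset.univ.filter (fun v : V => v ∈ A ∧ v ≠ 0)) =
      (Finset.univ.filter (fun v : V => v ∈ A)).erase 0 := by
    ext v
    simp [and_comm]
  rw [h1, Finset.card_erase_of_mem (by simp [A.zero_mem])]
  congr 1
  rw [Nat.card_eq_fintype_card, Fintype.card_subtype]

/-- a covering argument by counting -/
theorem cover_of_partition {α β : Type*} [DecidableEq α] (R : Finset β) (T A : β → Finset α)
    (Ω : Finset α) (hT : ∀ x ∈ Ω, ∃ r ∈ R, x ∈ T r) (hTd : ∀ r ∈ R, ∀ s ∈ R, r ≠ s → Disjoint (T r) (T s))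
    (hAd : ∀ r ∈ R, ∀ s ∈ R, r ≠ s → Disjoint (A r) (A s))
    (hTs : ∀ r ∈ R, T r ⊆ Ω) (hAs : ∀ r ∈ R, A r ⊆ Ω)
    (hcard : ∀ r ∈ R, (A r).card = (T r).card) : ∀ x ∈ Ω, ∃ r ∈ R, x ∈ A r := by
  classical
  have h1 : R.biUnion T = Ω := by
    ext x
    simp only [Finset.mem_biUnion]
    exact ⟨fun ⟨r, hr, hx⟩ => hTs r hr hx, fun hx => hT x hx⟩
  have h2 : R.biUnion A ⊆ Ω := Finset.biUnion_subset.mpr hAs
  have h3 : (R.biUnion A).card = Ω.card := by
    rw [← h1, Finset.card_biUnion (fun r hr s hs hne => hAd r hr s hs hne),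
      Finset.card_biUnion (fun r hr s hs hne => hTd r hr s hs hne)]
    exact Finset.sum_congr rfl hcard
  have h4 := Finset.eq_of_subset_of_card_le h2 (le_of_eq h3.symm)
  intro x hx
  rw [← h4] at hx
  simpa using hx

section odd
variable {K : Subgroup Γ} [Finite V] [FaithfulSMul Γ V]
  (hK : Bin V K) (hodd : ∀ v : V, v + v = 0 → v = 0)

include hK hodd

omit [FaithfulSMul Γ V] in
/-- no unipotent behaviour on a vector -/
theorem nilp {c : Γ} (hc : c ∈ K) {v : V} (h : c • (c • v - v) = c • v - v) : c • v = v := by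
  set u := c • v - v with hu
  have hcv : c • v = v + u := by rw [hu]; abel
  obtain ⟨g, hg, e1, e2⟩ := swap hK hc v
  have hgu : g • u = -u := by
    rw [hu, smul_sub, e2, e1]; abel
  obtain ⟨a, ha⟩ := exists_half hodd (-u)
  have hga : g • a = a + u := by
    apply dbl_inj hodd
    rw [← smul_add, ha, smul_neg, hgu]
    grind
  obtain ⟨k, _, hk'⟩ := kl hK u
  have e3 := hk' a ⟨g, hg, hga⟩
  have e4 := hk' v ⟨c, hc, hcv⟩
  have e5 := hk' (v + u) ⟨c, hc, by rw [smul_add, hcv, h]⟩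
  rw [smul_add, e4] at e5
  have e6 : k • u = u := by grind
  have e7 : k • (a + a) = (a + u) + (a + u) := by rw [smul_add, e3]
  rw [ha, smul_neg, e6] at e7
  have e8 : u + u = 0 := by grind
  have := hodd u e8
  grind

omit [FaithfulSMul Γ V] in
/-- Fitting decomposition for a single element -/
theorem fit {c : Γ} (hc : c ∈ K) (v : V) : ∃ k w, c • k = k ∧ v = k + (c • w - w) := by
  have hinj : Function.Injective (fun r : (U c : AddSubgroup V) =>
      (⟨c • (r : V) - r, dm_mem_U c _⟩ : (U c : AddSubgroup V))) := by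
    rintro ⟨a, ha⟩ ⟨b, hb⟩ h
    have h1 : c • a - a = c • b - b := congrArg Subtype.val h
    obtain ⟨y, hy⟩ := (U c : AddSubgroup V).sub_mem ha hb
    have h2 : c • (a - b) = a - b := by rw [smul_sub]; grind
    rw [← hy] at h2
    have h3 := nilp hK hodd hc h2
    have h4 : a - b = 0 := by rw [← hy, h3]; abel
    exact Subtype.ext (sub_eq_zero.mp h4)
  obtain ⟨⟨r, w, rfl⟩, h⟩ := (Finite.injective_iff_surjective.mp hinj) ⟨c • v - v, dm_mem_U c v⟩
  have h1 : c • (c • w - w) - (c • w - w) = c • v - v := congrArg Subtype.val h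
  refine ⟨v - (c • w - w), w, ?_, by abel⟩
  rw [smul_sub c v]
  grind

end odd

section line
variable {K : Subgroup Γ} [Finite V] [FaithfulSMul Γ V]
  (hK : Bin V K) (hodd : ∀ v : V, v + v = 0 → v = 0)

include hK hodd

theorem line_disj {a b : Γ} (ha : IsRt V K a) (hb : IsRt V K b) {x : V}
    (hx : x ∈ (Es a b : AddSubgroup V)) (h1 : a • x = x) (h2 : b • x = x) : x = 0 := by
  obtain ⟨α, hα, β, hβ, rfl⟩ := mem_Es.mp hx
  have hα' := ha.neg hK hα
  have hβ' := hb.neg hK hβ
  rw [smul_add] at h1 h2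
  have h3 : a • β = β + α + α := by grind
  have h4 : b • α = α + β + β := by grind
  have hc : a * b ∈ K := K.mul_mem ha.mem hb.mem
  have h5 : (a * b) • α - α = (α + β) + (α + β) := by
    rw [mul_smul, h4, smul_add, smul_add, hα', h3]
    abel
  have h6 : (a * b) • (α + β) = α + β := by
    rw [mul_smul, smul_add b, h2, smul_add, h1]
  have h7 : (a * b) • ((a * b) • α - α) = (a * b) • α - α := by
    rw [h5, smul_add, h6]
  have h8 := nilp hK hodd hc h7
  rw [h8, sub_self] at h5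
  exact hodd _ h5.symm

omit hodd [FaithfulSMul Γ V] [Finite V] hK in
theorem dm_prod_mem (a b : Γ) (w : V) (hc : ∀ u ∈ (U b : AddSubgroup V), a • u - u ∈ (U a : AddSubgroup V)) :
    (a * b) • w - w ∈ (Es a b : AddSubgroup V) := by
  have h : (a * b) • w - w = (a • (b • w - w) - (b • w - w)) + ((b • w - w) + (a • w - w)) := by
    rw [mul_smul, smul_sub a]
    abel
  rw [h]
  refine (Es a b : AddSubgroup V).add_mem (U_le_Es_left a b (hc _ (dm_mem_U b w))) ?_
  exact (Es a b : AddSubgroup V).add_mem (U_le_Es_right a b (dm_mem_U b w))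
    (U_le_Es_left a b (dm_mem_U a w))

theorem line_span {a b : Γ} (ha : IsRt V K a) (hb : IsRt V K b) (hne : a ≠ b) (v : V) :
    ∃ x ∈ (Xs a b : AddSubgroup V), ∃ e ∈ (Es a b : AddSubgroup V), v = x + e := by
  obtain ⟨k, w, hk, hv⟩ := fit hK hodd (K.mul_mem ha.mem hb.mem) v
  obtain ⟨h1, h2⟩ := fix_prod hK ha hb hne hk
  exact ⟨k, ⟨h1, h2⟩, _, dm_prod_mem a b w (fun u _ => dm_mem_U a u), hv⟩

theorem Es_eq_range {a b : Γ} (ha : IsRt V K a) (hb : IsRt V K b) (hne : a ≠ b) {e : V}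
    (he : e ∈ (Es a b : AddSubgroup V)) : ∃ w, (a * b) • w - w = e := by
  obtain ⟨k, w, hk, hv⟩ := fit hK hodd (K.mul_mem ha.mem hb.mem) e
  obtain ⟨h1, h2⟩ := fix_prod hK ha hb hne hk
  have h3 : (a * b) • w - w ∈ (Es a b : AddSubgroup V) := dm_prod_mem a b w (fun u _ => dm_mem_U a u)
  have h4 : k ∈ (Es a b : AddSubgroup V) := by
    have : k = e - ((a * b) • w - w) := by grind
    rw [this]
    exact (Es a b : AddSubgroup V).sub_mem he h3
  have h5 := line_disj hK hodd ha hb h4 h1 h2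
  exact ⟨w, by rw [hv, h5, zero_add]⟩

omit hodd in
theorem card_Es {a b : Γ} (ha : IsRt V K a) (hb : IsRt V K b) (hne : a ≠ b) :
    Nat.card (Es a b : AddSubgroup V) =
      Nat.card (U a : AddSubgroup V) * Nat.card (U b : AddSubgroup V) :=
  card_sup_eq _ _ (fun x h1 h2 => by
    by_contra h0
    exact hne (R2 hK ha hb h0 h1 h2))

/-- half inside a subgroup -/
theorem half_mem (A : AddSubgroup V) {v : V} (hv : v ∈ A) : ∃ y ∈ A, y + y = v := by
  obtain ⟨⟨y, hy⟩, h⟩ := exists_half (V := A) (fun w hw => by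
    have : (w : V) + w = 0 := congrArg Subtype.val hw
    exact Subtype.ext (hodd _ this)) ⟨v, hv⟩
  exact ⟨y, hy, congrArg Subtype.val h⟩

/-- splitting a vector of an invariant subgroup along a root -/
theorem inv_split {r : Γ} (hr : IsRt V K r) {E : AddSubgroup V} (hE : ∀ e ∈ E, r • e ∈ E) {e : V}
    (he : e ∈ E) : ∃ k u, k ∈ E ∧ r • k = k ∧ u ∈ E ∧ u ∈ (U r : AddSubgroup V) ∧ e = k + u := by
  obtain ⟨y, hy, rfl⟩ := half_mem hK hodd E he
  refine ⟨y + r • y, y - r • y, E.add_mem hy (hE y hy), ?_, E.sub_mem hy (hE y hy), ⟨-y, ?_⟩, by abel⟩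
  · rw [smul_add, hr.smul_smul hK]; abel
  · rw [smul_neg]; abel

/-- size of the fixed points inside an invariant subgroup -/
theorem card_W_inf {r : Γ} (hr : IsRt V K r) {E : AddSubgroup V} (hE : ∀ e ∈ E, r • e ∈ E)
    (hU : (U r : AddSubgroup V) ≤ E) :
    Nat.card (W r ⊓ E : AddSubgroup V) * Nat.card (U r : AddSubgroup V) = Nat.card E := by
  have h1 : (W r ⊓ E : AddSubgroup V) ⊔ U r = E := by
    apply le_antisymm (sup_le inf_le_right hU)
    intro e he
    obtain ⟨k, u, hk, hrk, _, hu, rfl⟩ := inv_split hK hodd hr hE he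
    exact AddSubgroup.add_mem_sup ⟨hrk, hk⟩ hu
  rw [← card_sup_eq]
  · rw [h1]
  · intro x h2 h3
    have h4 : r • x = x := h2.1
    rw [hr.neg hK h3] at h4
    exact hodd x (by grind)

end line

end Cfsg.Agent.BinAff
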