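import Cfsg.Agent.Lib.BinC

/-! Binary linear groups in odd characteristic: averaging and the structure of a line. -/

set_option autoImplicit false

namespace Cfsg.Agent.BinAff

variable {V Γ : Type*} [AddCommGroup V] [Group Γ] [DistribMulAction Γ V]

section avg
variable {K : Subgroup Γ} [Finite V] [Finite Γ] [FaithfulSMul Γ V]

theorem not_dvd_card (hK : Bin V K) (hodd : ∀ v : V, v + v = 0 → v = 0) {p : ℕ} [hpp : Fact p.Prime]
    (hp : ∀ v : V, p • v = 0) {B : Subgroup Γ} (hB : B ≤ K) : ¬ p ∣ Nat.card B := by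
  intro hdvd
  obtain ⟨x, hx⟩ := exists_prime_orderOf_dvd_card' p hdvd
  have hc : (x : Γ) ∈ K := hB x.2
  have hx1 : (x : Γ) ^ p = 1 := by
    have := pow_orderOf_eq_one x
    rw [hx] at this
    exact_mod_cast congrArg Subtype.val this
  have hxne : (x : Γ) ≠ 1 := by
    intro h
    have h1 : x = 1 := Subtype.ext h
    rw [h1, orderOf_one] at hx
    exact hpp.out.one_lt.ne hx
  obtain ⟨z, hz⟩ := exists_moved (V := V) hxne
  generalize (x : Γ) = c at hc hx1 hxne hz
  let C : AddMonoid.End V := DistribMulAction.toAddMonoidEnd Γ V c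
  haveI : Nontrivial V := ⟨⟨c • z, z, hz⟩⟩
  haveI : Nontrivial (AddMonoid.End V) := ⟨⟨1, 0, fun h => by
    have h1 : ∀ v : V, v = 0 := fun v => DFunLike.congr_fun h v
    exact hz (by rw [h1 (c • z), h1 z])⟩⟩
  haveI : CharP (AddMonoid.End V) p := (CharP.charP_iff_prime_eq_zero hpp.out).mpr (by
    ext v
    simp [AddMonoid.End.natCast_apply, hp v])
  have hCp : C ^ p = 1 := by
    have : C ^ p = DistribMulAction.toAddMonoidEnd Γ V (c ^ p) := by
      simp [C, map_pow]
    rw [this, hx1, map_one]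
  have hN : (C - 1) ^ p = 0 := by
    rw [sub_pow_char_of_commute p (Commute.one_right C), one_pow, hCp, sub_self]
  have hC : ∀ w : V, (C - 1) w = c • w - w := fun w => rfl
  have key : ∀ (k : ℕ) (w : V), ((C - 1) ^ (k + 1)) w = 0 → (C - 1) w = 0 := by
    intro k
    induction k with
    | zero => intro w hw; simpa using hw
    | succ k ih =>
      intro w hw
      apply ih
      have h1 : ((C - 1) ^ (k + 1 + 1)) w = (C - 1) ((C - 1) (((C - 1) ^ k) w)) := by
        rw [pow_succ', pow_succ']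
        rfl
      rw [h1] at hw
      set y := ((C - 1) ^ k) w with hy
      rw [hC, hC] at hw
      have h2 : c • (c • y - y) = c • y - y := by
        have := sub_eq_zero.mp hw
        exact this
      have h3 := nilp hK hodd hc h2
      have h4 : ((C - 1) ^ (k + 1)) w = (C - 1) y := by
        rw [pow_succ']
        rfl
      rw [h4, hC, h3, sub_self]
  have hpos : p = (p - 1) + 1 := (Nat.sub_add_cancel hpp.out.one_lt.le).symm
  have h0 : (C - 1) z = 0 := key (p - 1) z (by rw [← hpos, hN]; rfl)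
  rw [hC] at h0
  exact hz (sub_eq_zero.mp h0)

/-- averaging operator -/
noncomputable def Av (V : Type*) [AddCommGroup V] {Γ : Type*} [Group Γ] [DistribMulAction Γ V]
    (B : Subgroup Γ) [Fintype B] : V →+ V :=
  ∑ g : B, DistribMulAction.toAddMonoidHom V (g : Γ)

theorem Av_apply (B : Subgroup Γ) [Fintype B] (v : V) : Av V B v = ∑ g : B, (g : Γ) • v := by
  simp [Av, AddMonoidHom.finset_sum_apply]

theorem Av_smul (B : Subgroup Γ) [Fintype B] {h : Γ} (hh : h ∈ B) (v : V) :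
    Av V B (h • v) = Av V B v := by
  rw [Av_apply, Av_apply]
  refine Fintype.sum_equiv (Equiv.mulRight (⟨h, hh⟩ : B)) _ _ (fun g => ?_)
  simp [mul_smul]

theorem Av_fix (B : Subgroup Γ) [Fintype B] {x : V} (hx : ∀ g ∈ B, g • x = x) :
    Av V B x = Nat.card B • x := by
  have h1 : ∀ g : B, (g : Γ) • x = x := fun g => hx g g.2
  rw [Av_apply]
  simp [h1, Nat.card_eq_fintype_card]

theorem Av_neg (hodd : ∀ v : V, v + v = 0 → v = 0) (B : Subgroup Γ) [Fintype B] {r : Γ} (hr : r ∈ B)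
    {u : V} (hu : r • u = -u) : Av V B u = 0 := by
  have h1 := Av_smul B hr u
  rw [hu, map_neg] at h1
  exact hodd _ (by grind)

theorem avg_inv {p : ℕ} [hpp : Fact p.Prime] (hp : ∀ v : V, p • v = 0) (B : Subgroup Γ)
    (hcop : ¬ p ∣ Nat.card B) (X E : AddSubgroup V) (hspan : ∀ v, ∃ x ∈ X, ∃ e ∈ E, v = x + e)
    (hfix : ∀ g ∈ B, ∀ x ∈ X, g • x = x) [Fintype B] (hkill : E ≤ (Av V B).ker) :
    ∀ g ∈ B, ∀ e ∈ E, g • e ∈ E := by
  intro g hg e he
  obtain ⟨x, hx, e', he', h1⟩ := hspan (g • e)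
  have h2 : Av V B (g • e) = 0 := by
    rw [Av_smul B hg]
    exact hkill he
  rw [h1, map_add, Av_fix B (fun k hk => hfix k hk x hx), (show Av V B e' = 0 from hkill he'),
    add_zero] at h2
  have hx0 : x = 0 := by
    by_contra hx0
    have h3 : addOrderOf x = p := addOrderOf_eq_prime (hp x) hx0
    exact hcop (h3 ▸ addOrderOf_dvd_of_nsmul_eq_zero h2)
  rw [h1, hx0, zero_add]
  exact he'

end avg

/-- roots on the line of `a` and `b` -/
def RL (V : Type*) [AddCommGroup V] {Γ : Type*} [Group Γ] [DistribMulAction Γ V] (K : Subgroup Γ)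
    (a b r : Γ) : Prop :=
  IsRt V K r ∧ ∀ v : V, a • v = v → b • v = v → r • v = v

theorem exists_ne_of_one_lt [Finite V] (A : AddSubgroup V) (h : 1 < Nat.card A) : ∃ x ∈ A, x ≠ 0 := by
  haveI : Nontrivial A := (Finite.one_lt_card_iff_nontrivial).mp h
  obtain ⟨x, hx⟩ := exists_ne (0 : A)
  exact ⟨x, x.2, fun h => hx (Subtype.ext h)⟩

theorem one_lt_card_of_ne [Finite V] (A : AddSubgroup V) {x : V} (hx : x ∈ A) (h0 : x ≠ 0) :
    1 < Nat.card A := by
  haveI : Nontrivial A := ⟨⟨⟨x, hx⟩, 0, fun h => h0 (congrArg Subtype.val h)⟩⟩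
  exact Finite.one_lt_card

section line
variable {K : Subgroup Γ} [Finite V] [Finite Γ] [FaithfulSMul Γ V]
  (hK : Bin V K) (hodd : ∀ v : V, v + v = 0 → v = 0) {p : ℕ} [hpp : Fact p.Prime]
  (hp : ∀ v : V, p • v = 0) {a b : Γ} (ha : IsRt V K a) (hb : IsRt V K b) (hab : a * b ≠ b * a)

include hK hodd hp ha hb hab

theorem ab_ne : a ≠ b := by
  rintro rfl
  exact hab rfl

omit hp hodd [Finite Γ] in
theorem a_mem_B : a ∈ Fx K ((Xs a b : AddSubgroup V) : Set V) := ⟨ha.mem, fun _ hv => hv.1⟩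

omit hp hodd [Finite Γ] in
theorem b_mem_B : b ∈ Fx K ((Xs a b : AddSubgroup V) : Set V) := ⟨hb.mem, fun _ hv => hv.2⟩

theorem ln_inv : ∀ g ∈ Fx K ((Xs a b : AddSubgroup V) : Set V), ∀ e ∈ (Es a b : AddSubgroup V),
    g • e ∈ (Es a b : AddSubgroup V) := by
  classical
  letI : Fintype (Fx K ((Xs a b : AddSubgroup V) : Set V)) := Fintype.ofFinite _
  refine avg_inv hp _ (not_dvd_card hK hodd hp (Fx_le _ _)) (Xs a b) (Es a b)
    (line_span hK hodd ha hb (ab_ne hK hodd hp ha hb hab)) (fun g hg x hx => hg.2 x hx) ?_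
  refine sup_le ?_ ?_
  · intro u hu
    exact Av_neg hodd _ (a_mem_B hK ha hb hab) (ha.neg hK hu)
  · intro u hu
    exact Av_neg hodd _ (b_mem_B hK ha hb hab) (hb.neg hK hu)

omit hab in
theorem RL.mem {r : Γ} (hr : RL V K a b r) : r ∈ Fx K ((Xs a b : AddSubgroup V) : Set V) :=
  ⟨hr.1.mem, fun v hv => hr.2 v hv.1 hv.2⟩

theorem ln_U {r : Γ} (hr : RL V K a b r) : (U r : AddSubgroup V) ≤ Es a b := by
  rintro _ ⟨y, rfl⟩
  obtain ⟨x, hx, e, he, rfl⟩ := line_span hK hodd ha hb (ab_ne hK hodd hp ha hb hab) y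
  have h1 : r • (x + e) - (x + e) = r • e - e := by
    rw [smul_add, hr.2 x hx.1 hx.2]; abel
  rw [h1]
  exact (Es a b : AddSubgroup V).sub_mem
    (ln_inv hK hodd hp ha hb hab r (RL.mem hK hodd hp ha hb hr) e he) he

theorem ln_card {r : Γ} (hr : RL V K a b r) :
    Nat.card (U r : AddSubgroup V) = Nat.card (U a : AddSubgroup V) := by
  by_cases h1 : r = a
  · rw [h1]
  by_cases h2 : r * a = a * r
  · by_cases h3 : r = b
    · rw [h3]; exact card_U_eq hK hb ha (Ne.symm hab)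
    by_cases h4 : r * b = b * r
    · exfalso
      obtain ⟨u, hu, hu0⟩ := U_exists_ne (V := V) hr.1.ne
      have e1 := comm_fix hK (Or.inr hodd) hr.1 ha h1 h2.symm hu
      have e2 := comm_fix hK (Or.inr hodd) hr.1 hb h3 h4.symm hu
      exact hu0 (line_disj hK hodd ha hb (ln_U hK hodd hp ha hb hab hr hu) e1 e2)
    · exact (card_U_eq hK hr.1 hb h4).trans (card_U_eq hK hb ha (Ne.symm hab))
  · exact card_U_eq hK hr.1 ha h2

theorem card_Es' : Nat.card (Es a b : AddSubgroup V) =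
    Nat.card (U a : AddSubgroup V) * Nat.card (U a : AddSubgroup V) := by
  rw [card_Es hK ha hb (ab_ne hK hodd hp ha hb hab), card_U_eq hK hb ha (Ne.symm hab)]

theorem ln_Wcard {r : Γ} (hr : RL V K a b r) :
    Nat.card (W r ⊓ Es a b : AddSubgroup V) = Nat.card (U a : AddSubgroup V) := by
  have h1 := card_W_inf hK hodd hr.1 (ln_inv hK hodd hp ha hb hab r (RL.mem hK hodd hp ha hb hr))
    (ln_U hK hodd hp ha hb hab hr)
  rw [ln_card hK hodd hp ha hb hab hr, card_Es' hK hodd hp ha hb hab] at h1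
  exact Nat.eq_of_mul_eq_mul_right Nat.card_pos h1

theorem ln_Es_eq {r s : Γ} (hr : RL V K a b r) (hs : RL V K a b s) (hne : r ≠ s) :
    (Es r s : AddSubgroup V) = Es a b := by
  apply eq_of_le_of_card_le (sup_le (ln_U hK hodd hp ha hb hab hr) (ln_U hK hodd hp ha hb hab hs))
  show Nat.card (Es a b : AddSubgroup V) ≤ Nat.card (Es r s : AddSubgroup V)
  rw [card_Es hK hr.1 hs.1 hne, ln_card hK hodd hp ha hb hab hr, ln_card hK hodd hp ha hb hab hs,
    card_Es' hK hodd hp ha hb hab]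

theorem ln_cover (y : V) : ∃ r, RL V K a b r ∧ r • y = y := by
  by_cases h : ∀ g ∈ Fx K ((Xs a b : AddSubgroup V) : Set V), g • y = y → g = 1
  · exfalso
    have h1 := reg (hK.fx _) h (a * b)
      (Subgroup.mul_mem _ (a_mem_B hK ha hb hab) (b_mem_B hK ha hb hab))
    exact sq_ne_of_noncomm (ha.sq hK) (hb.sq hK) hab h1
  · push Not at h
    obtain ⟨g, hg, hgy, hg1⟩ := h
    obtain ⟨r, hr, hgr⟩ := exists_root (V := V) hg.1 hg1
    exact ⟨r, ⟨hr, fun v h1 h2 => hgr v (hg.2 v ⟨h1, h2⟩)⟩, hgr y hgy⟩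

theorem ln_disjW {r s : Γ} (hr : RL V K a b r) (hs : RL V K a b s) (hne : r ≠ s) {y : V}
    (hy : y ∈ (Es a b : AddSubgroup V)) (h1 : r • y = y) (h2 : s • y = y) : y = 0 :=
  line_disj hK hodd hr.1 hs.1 (by rw [ln_Es_eq hK hodd hp ha hb hab hr hs hne]; exact hy) h1 h2

theorem ln_count {x : V} (hx : x ∈ (Es a b : AddSubgroup V)) (h0 : x ≠ 0) :
    ∃ r, RL V K a b r ∧ x ∈ (U r : AddSubgroup V) := by
  classical
  letI : Fintype V := Fintype.ofFinite V
  letI : Fintype Γ := Fintype.ofFinite Γ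
  have := cover_of_partition (Finset.univ.filter (fun r : Γ => RL V K a b r))
    (fun r => Finset.univ.filter (fun v : V => v ∈ (W r ⊓ Es a b : AddSubgroup V) ∧ v ≠ 0))
    (fun r => Finset.univ.filter (fun v : V => v ∈ (U r : AddSubgroup V) ∧ v ≠ 0))
    (Finset.univ.filter (fun v : V => v ∈ (Es a b : AddSubgroup V) ∧ v ≠ 0))
    (by
      intro y hy
      simp only [Finset.mem_filter, Finset.mem_univ, true_and] at hy ⊢
      obtain ⟨r, hr, hry⟩ := ln_cover hK hodd hp ha hb hab y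
      exact ⟨r, hr, ⟨hry, hy.1⟩, hy.2⟩)
    (by
      intro r hr s hs hne
      simp only [Finset.mem_filter, Finset.mem_univ, true_and] at hr hs
      rw [Finset.disjoint_left]
      intro y hy hy'
      simp only [Finset.mem_filter, Finset.mem_univ, true_and] at hy hy'
      exact hy.2 (ln_disjW hK hodd hp ha hb hab hr hs hne hy.1.2 hy.1.1 hy'.1.1))
    (by
      intro r hr s hs hne
      simp only [Finset.mem_filter, Finset.mem_univ, true_and] at hr hs
      rw [Finset.disjoint_left]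
      intro y hy hy'
      simp only [Finset.mem_filter, Finset.mem_univ, true_and] at hy hy'
      exact hne (R2 hK hr.1 hs.1 hy.2 hy.1 hy'.1))
    (by
      intro r _ y hy
      simp only [Finset.mem_filter, Finset.mem_univ, true_and] at hy ⊢
      exact ⟨hy.1.2, hy.2⟩)
    (by
      intro r hr y hy
      simp only [Finset.mem_filter, Finset.mem_univ, true_and] at hr hy ⊢
      exact ⟨ln_U hK hodd hp ha hb hab hr hy.1, hy.2⟩)
    (by
      intro r hr
      simp only [Finset.mem_filter, Finset.mem_univ, true_and] at hr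
      rw [card_filter_ne, card_filter_ne, ln_card hK hodd hp ha hb hab hr,
        ln_Wcard hK hodd hp ha hb hab hr])
    x (by simp [hx, h0])
  obtain ⟨r, hr, hxr⟩ := this
  simp only [Finset.mem_filter, Finset.mem_univ, true_and] at hr hxr
  exact ⟨r, hr, hxr.1⟩

theorem ln_partner {r : Γ} (hr : RL V K a b r) :
    ∃ f, RL V K a b f ∧ f ≠ r ∧ f * r = r * f ∧
      (W r ⊓ Es a b : AddSubgroup V) = U f ∧ (W f ⊓ Es a b : AddSubgroup V) = U r := by
  have hq : 1 < Nat.card (U a : AddSubgroup V) := by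
    obtain ⟨u, hu, hu0⟩ := U_exists_ne (V := V) ha.ne
    exact one_lt_card_of_ne _ hu hu0
  obtain ⟨y, hy, hy0⟩ := exists_ne_of_one_lt (W r ⊓ Es a b : AddSubgroup V)
    (by rw [ln_Wcard hK hodd hp ha hb hab hr]; exact hq)
  obtain ⟨f, hf, hyf⟩ := ln_count hK hodd hp ha hb hab hy.2 hy0
  have hry : r • y = y := hy.1
  have hne : f ≠ r := by
    rintro rfl
    rw [hf.1.neg hK hyf] at hry
    exact hy0 (hodd y (by grind))
  have hc : r * f = f * r := comm_of_fix hK hf.1 hr.1.mem hyf hy0 hry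
  refine ⟨f, hf, hne, hc.symm, ?_, ?_⟩
  · symm
    apply eq_of_le_of_card_le
    · intro u hu
      exact ⟨comm_fix hK (Or.inr hodd) hf.1 hr.1 hne hc hu, ln_U hK hodd hp ha hb hab hf hu⟩
    · rw [ln_Wcard hK hodd hp ha hb hab hr, ln_card hK hodd hp ha hb hab hf]
  · symm
    apply eq_of_le_of_card_le
    · intro u hu
      exact ⟨comm_fix hK (Or.inr hodd) hr.1 hf.1 hne.symm hc.symm hu, ln_U hK hodd hp ha hb hab hr hu⟩
    · rw [ln_Wcard hK hodd hp ha hb hab hf, ln_card hK hodd hp ha hb hab hr]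

/-- any root with commutator range inside the line is on the line -/
theorem RL_of_U_le {d : Γ} (hd : IsRt V K d) (hle : (U d : AddSubgroup V) ≤ Es a b) :
    RL V K a b d := by
  obtain ⟨u, hu, hu0⟩ := U_exists_ne (V := V) hd.ne
  obtain ⟨r, hr, hur⟩ := ln_count hK hodd hp ha hb hab (hle hu) hu0
  rw [R2 hK hd hr.1 hu0 hu hur]
  exact hr

end line

end Cfsg.Agent.BinAff
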