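import Cfsg.Agent.Lib.BinD

/-! Binary linear groups in odd characteristic: the frame of a path of roots leaving a line. -/

set_option autoImplicit false

namespace Cfsg.Agent.BinAff

variable {V Γ : Type*} [AddCommGroup V] [Group Γ] [DistribMulAction Γ V]

variable (V) in
/-- the frame attached to a path `a - b - d` leaving the line of `a, b` -/
structure Frame (K : Subgroup Γ) (a b d f p₁ : Γ) : Prop where
  hf : IsRt V K f
  hp₁ : RL V K a b p₁
  ne1 : p₁ ≠ b
  c1 : p₁ * b = b * p₁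
  e1 : (W b ⊓ Es a b : AddSubgroup V) = U p₁
  e2 : (W p₁ ⊓ Es a b : AddSubgroup V) = U b
  fX : (U f : AddSubgroup V) ≤ Xs a b
  fd : f * d ≠ d * f
  fY : ∀ v : V, a • v = v → b • v = v → d • v = v → f • v = v

/-- fixed vectors of `a, b, d` -/
def Yy (a b d : Γ) : AddSubgroup V := Xs a b ⊓ W d

theorem mem_Yy {a b d : Γ} {v : V} :
    v ∈ (Yy a b d : AddSubgroup V) ↔ (a • v = v ∧ b • v = v) ∧ d • v = v := Iff.rfl

/-- the big space of the frame -/
def Vp (f a b : Γ) : AddSubgroup V := U f ⊔ Es a b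

section frame
variable {K : Subgroup Γ} [Finite V] [Finite Γ] [FaithfulSMul Γ V]
  (hK : Bin V K) (hodd : ∀ v : V, v + v = 0 → v = 0) {p : ℕ} [hpp : Fact p.Prime]
  (hp : ∀ v : V, p • v = 0) {a b d : Γ} (ha : IsRt V K a) (hb : IsRt V K b) (hd : IsRt V K d)
  (hab : a * b ≠ b * a) (hbd : b * d ≠ d * b)

include hK hodd hp ha hb hd hab hbd

theorem frame_exists (hout : ¬ (U d : AddSubgroup V) ≤ Es a b) :
    ∃ f p₁, Frame V K a b d f p₁ := by
  have hb_a : RL V K a b b := ⟨hb, fun v _ h => h⟩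
  have hb_d : RL V K b d b := ⟨hb, fun v h _ => h⟩
  obtain ⟨p₁, hp₁, hne1, hc1, h1a, h1b⟩ := ln_partner hK hodd hp ha hb hab hb_a
  obtain ⟨p₂, hp₂, hne2, hc2, h2a, h2b⟩ := ln_partner hK hodd hp hb hd hbd hb_d
  -- elements fixed by `b, p₁` are in `X`
  have sub_X : ∀ v : V, b • v = v → p₁ • v = v → a • v = v ∧ b • v = v := by
    intro v h1 h2
    obtain ⟨x, hx, e, he, rfl⟩ := line_span hK hodd ha hb (ab_ne hK hodd hp ha hb hab) v
    have hbx : b • x = x := hx.2
    have hp₁x : p₁ • x = x := hp₁.2 x hx.1 hx.2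
    rw [smul_add, hbx] at h1
    rw [smul_add, hp₁x] at h2
    have hbe : b • e = e := by grind
    have hpe : p₁ • e = e := by grind
    have : e ∈ (U p₁ : AddSubgroup V) := by
      rw [← h1a]; exact ⟨hbe, he⟩
    rw [hp₁.1.neg hK this] at hpe
    have he0 : e = 0 := hodd e (by grind)
    rw [he0, add_zero]
    exact hx
  have hE1 : (Es a b : AddSubgroup V) = Es b p₁ := (ln_Es_eq hK hodd hp ha hb hab hb_a hp₁ hne1.symm).symm
  have hE2 : (Es b d : AddSubgroup V) = Es b p₂ := (ln_Es_eq hK hodd hp hb hd hbd hb_d hp₂ hne2.symm).symm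
  have hp12 : p₁ ≠ p₂ := by
    rintro rfl
    apply hout
    rw [hE1, ← hE2]
    exact U_le_Es_right b d
  have hWb1 : (U p₁ : AddSubgroup V) ≤ W b := by
    rw [← h1a]; exact inf_le_left
  have hWb2 : (U p₂ : AddSubgroup V) ≤ W b := by
    rw [← h2a]; exact inf_le_left
  by_cases hc12 : p₁ * p₂ = p₂ * p₁
  · refine ⟨p₂, p₁, ⟨hp₂.1, hp₁, hne1, hc1, h1a, h1b, ?_, ?_, ?_⟩⟩
    · intro u hu
      exact sub_X u (hWb2 hu) (comm_fix hK (Or.inr hodd) hp₂.1 hp₁.1 hp12.symm hc12 hu)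
    · intro hcd
      have hne : p₂ ≠ d := by
        rintro rfl
        exact hbd hc2.symm
      obtain ⟨u, hu, hu0⟩ := U_exists_ne (V := V) hp₂.1.ne
      have e1 : b • u = u := hWb2 hu
      have e2 : d • u = u := comm_fix hK (Or.inr hodd) hp₂.1 hd hne hcd.symm hu
      apply hu0
      refine line_disj hK hodd hb hd ?_ e1 e2
      exact ln_U hK hodd hp hb hd hbd hp₂ hu
    · intro v _ h2 h3
      exact hp₂.2 v h2 h3
  · have hp1l : RL V K p₁ p₂ p₁ := ⟨hp₁.1, fun v h _ => h⟩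
    obtain ⟨f, hf, hfne, hfc, hfa, hfb⟩ := ln_partner hK hodd hp hp₁.1 hp₂.1 hc12 hp1l
    have hEb : (Es p₁ p₂ : AddSubgroup V) ≤ W b := sup_le hWb1 hWb2
    have hUf1 : (U f : AddSubgroup V) ≤ W p₁ := by
      rw [← hfa]; exact inf_le_left
    have hUfE : (U f : AddSubgroup V) ≤ Es p₁ p₂ := by
      rw [← hfa]; exact inf_le_right
    refine ⟨f, p₁, ⟨hf.1, hp₁, hne1, hc1, h1a, h1b, ?_, ?_, ?_⟩⟩
    · intro u hu
      exact sub_X u (hEb (hUfE hu)) (hUf1 hu)
    · intro hcd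
      obtain ⟨u, hu, hu0⟩ := U_exists_ne (V := V) hf.1.ne
      have hbf : b * f = f * b := comm_of_fix hK hf.1 hb.mem hu hu0 (hEb (hUfE hu))
      have hne : f ≠ d := by
        rintro rfl
        exact hbd hbf
      have e0 : ∀ w ∈ (U f : AddSubgroup V), d • w = w := fun w hw =>
        comm_fix hK (Or.inr hodd) hf.1 hd hne hcd.symm hw
      apply hu0
      refine line_disj hK hodd hp₁.1 hp₂.1 (hUfE hu) (hUf1 hu) ?_
      exact hp₂.2 u (hEb (hUfE hu)) (e0 u hu)
    · intro v h1 h2 h3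
      exact hf.2 v (hp₁.2 v h1 h2) (hp₂.2 v h2 h3)

end frame

section frame2
variable {K : Subgroup Γ} [Finite V] [Finite Γ] [FaithfulSMul Γ V]
  (hK : Bin V K) (hodd : ∀ v : V, v + v = 0 → v = 0) {p : ℕ} [hpp : Fact p.Prime]
  (hp : ∀ v : V, p • v = 0) {a b d f p₁ : Γ} (ha : IsRt V K a) (hb : IsRt V K b) (hd : IsRt V K d)
  (hab : a * b ≠ b * a) (hbd : b * d ≠ d * b) (F : Frame V K a b d f p₁)

include hK hodd hp ha hb hd hab hbd F

theorem frame_fne : f ≠ a ∧ f ≠ b := by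
  obtain ⟨u, hu, hu0⟩ := U_exists_ne (V := V) F.hf.ne
  have h := F.fX hu
  constructor
  · rintro rfl
    have h1 : f • u = u := h.1
    rw [F.hf.neg hK hu] at h1
    exact hu0 (hodd u (by grind))
  · rintro rfl
    have h1 : f • u = u := h.2
    rw [F.hf.neg hK hu] at h1
    exact hu0 (hodd u (by grind))

theorem frame_comm : f * a = a * f ∧ f * b = b * f := by
  obtain ⟨u, hu, hu0⟩ := U_exists_ne (V := V) F.hf.ne
  have h := F.fX hu
  exact ⟨(comm_of_fix hK F.hf ha.mem hu hu0 h.1).symm, (comm_of_fix hK F.hf hb.mem hu hu0 h.2).symm⟩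

theorem frame_E_fix : ∀ e ∈ (Es a b : AddSubgroup V), f • e = e := by
  have h1 := frame_fne hK hodd hp ha hb hd hab hbd F
  have h2 := frame_comm hK hodd hp ha hb hd hab hbd F
  have h3 : (Es a b : AddSubgroup V) ≤ W f := by
    refine sup_le ?_ ?_
    · intro u hu
      exact comm_fix hK (Or.inr hodd) ha F.hf h1.1.symm h2.1 hu
    · intro u hu
      exact comm_fix hK (Or.inr hodd) hb F.hf h1.2.symm h2.2 hu
  exact fun e he => h3 he

/-- the element acting as `-1` on the frame space -/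
theorem frame_iota_neg : ∀ v ∈ (Vp f a b : AddSubgroup V), (b * p₁ * f) • v = -v := by
  intro v hv
  obtain ⟨u, hu, e, he, rfl⟩ := AddSubgroup.mem_sup.mp hv
  have hE := frame_E_fix hK hodd hp ha hb hd hab hbd F e he
  have hfu : f • u = -u := F.hf.neg hK hu
  have huX := F.fX hu
  have hpu : p₁ • u = u := F.hp₁.2 u huX.1 huX.2
  have hbu : b • u = u := huX.2
  have hE2 : (b * p₁) • e = -e := by
    obtain ⟨k, u', hk, hbk, hu'E, hu', rfl⟩ := inv_split hK hodd hb
      (ln_inv hK hodd hp ha hb hab b (b_mem_B hK ha hb hab)) he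
    have h1 : k ∈ (U p₁ : AddSubgroup V) := by
      rw [← F.e1]; exact ⟨hbk, hk⟩
    have h2 : u' ∈ (W p₁ ⊓ Es a b : AddSubgroup V) := by
      rw [F.e2]; exact hu'
    have h3 : p₁ • u' = u' := h2.1
    rw [mul_smul, smul_add, F.hp₁.1.neg hK h1, h3, smul_add, smul_neg, hbk, hb.neg hK hu']
    abel
  rw [smul_add, mul_smul, mul_smul, hfu, smul_neg, hpu, smul_neg, hbu, mul_smul, hE, hE2]
  abel

theorem frame_span (v : V) : ∃ y ∈ (Yy a b d : AddSubgroup V), ∃ v' ∈ (Vp f a b : AddSubgroup V),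
    v = y + v' := by
  obtain ⟨x, hx, e, he, rfl⟩ := line_span hK hodd ha hb (ab_ne hK hodd hp ha hb hab) v
  obtain ⟨hca, hcb⟩ := frame_comm hK hodd hp ha hb hd hab hbd F
  obtain ⟨k, u, hk, hfk, huX, hu, rfl⟩ := inv_split hK hodd F.hf (E := Xs a b) (by
    intro w hw
    exact ⟨by
        have h1 : a • w = w := hw.1
        show a • f • w = f • w
        rw [← mul_smul, ← hca, mul_smul, h1], by
        have h1 : b • w = w := hw.2
        show b • f • w = f • w
        rw [← mul_smul, ← hcb, mul_smul, h1]⟩) hx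
  have hkd : d • k = k := by
    obtain ⟨u', hu', e1⟩ := dm_surj hK F.hf hd F.fd (dm_mem_U d k)
    have hu'X := F.fX hu'
    have e2 : d • (k - u') = k - u' := by
      rw [smul_sub]; grind
    have e3 : f • (k - u') = k - u' := F.fY _
      ((Xs a b : AddSubgroup V).sub_mem hk hu'X).1 ((Xs a b : AddSubgroup V).sub_mem hk hu'X).2 e2
    rw [smul_sub, hfk] at e3
    have e4 : f • u' = u' := by grind
    rw [F.hf.neg hK hu'] at e4
    have e5 : u' = 0 := hodd u' (by grind)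
    rw [e5, smul_zero] at e1
    grind
  refine ⟨k, ⟨hk, hkd⟩, u + e, ?_, by abel⟩
  exact AddSubgroup.add_mem_sup hu he

theorem frame_iota_mem : b * p₁ * f ∈ Fx K ((Yy a b d : AddSubgroup V) : Set V) := by
  refine ⟨K.mul_mem (K.mul_mem hb.mem F.hp₁.1.mem) F.hf.mem, fun v hv => ?_⟩
  obtain ⟨⟨h1, h2⟩, h3⟩ := hv
  rw [mul_smul, mul_smul, F.fY v h1 h2 h3, F.hp₁.2 v h1 h2, h2]

theorem frame_inv : ∀ g ∈ Fx K ((Yy a b d : AddSubgroup V) : Set V), ∀ x ∈ (Vp f a b : AddSubgroup V),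
    g • x ∈ (Vp f a b : AddSubgroup V) := by
  intro g hg x hx
  obtain ⟨y, hy, x', hx', h1⟩ := frame_span hK hodd hp ha hb hd hab hbd F (g • x)
  have hι := frame_iota_mem hK hodd hp ha hb hd hab hbd F
  set ι := b * p₁ * f with hιdef
  have hιneg := frame_iota_neg hK hodd hp ha hb hd hab hbd F
  have hιy : ι • y = y := hι.2 y hy
  have hgy : g • y = y := hg.2 y hy
  have hgy' : g⁻¹ • y = y := by rw [inv_smul_eq_iff, hgy]
  have hx'2 : g⁻¹ • x' = x - y := by
    rw [inv_smul_eq_iff, smul_sub, hgy]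
    grind
  have hk : (g⁻¹ * ι * g) • x = y + y - x := by
    rw [mul_smul, mul_smul, h1, smul_add, hιy, hιneg x' hx', smul_add, smul_neg, hgy', hx'2]
    abel
  have hk2 : (g⁻¹ * ι * g) • y = y := by
    rw [mul_smul, mul_smul, hgy, hιy, hgy']
  have hcmem : ι * (g⁻¹ * ι * g) ∈ K :=
    K.mul_mem hι.1 (K.mul_mem (K.mul_mem (K.inv_mem hg.1) hι.1) hg.1)
  have hc1 : (ι * (g⁻¹ * ι * g)) • x = x + (y + y) := by
    rw [mul_smul, hk, smul_sub, smul_add, hιy, hιneg x hx]
    abel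
  have hc2 : (ι * (g⁻¹ * ι * g)) • y = y := by
    rw [mul_smul, hk2, hιy]
  have hn := nilp hK hodd hcmem (v := x) (by
    rw [hc1, add_sub_cancel_left, smul_add, hc2])
  rw [hc1] at hn
  have hy0 : y = 0 := hodd y (by grind)
  rw [h1, hy0, zero_add]
  exact hx'

theorem frame_U {r : Γ} (hr : IsRt V K r) (hrY : ∀ v ∈ (Yy a b d : AddSubgroup V), r • v = v) :
    (U r : AddSubgroup V) ≤ Vp f a b := by
  rintro _ ⟨w, rfl⟩
  obtain ⟨y, hy, x', hx', rfl⟩ := frame_span hK hodd hp ha hb hd hab hbd F w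
  have h1 : r • (y + x') - (y + x') = r • x' - x' := by
    rw [smul_add, hrY y hy]; abel
  rw [h1]
  exact (Vp f a b : AddSubgroup V).sub_mem
    (frame_inv hK hodd hp ha hb hd hab hbd F r ⟨hr.mem, hrY⟩ x' hx') hx'

theorem frame_card {r : Γ} (hr : IsRt V K r) (hrY : ∀ v ∈ (Yy a b d : AddSubgroup V), r • v = v) :
    Nat.card (U r : AddSubgroup V) = Nat.card (U a : AddSubgroup V) := by
  have hq1 := card_U_eq hK hb ha (Ne.symm hab)
  have hq2 := card_U_eq hK hd hb (Ne.symm hbd)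
  by_cases h1 : r = a
  · rw [h1]
  by_cases h2 : r = b
  · rw [h2, hq1]
  by_cases h3 : r = d
  · rw [h3, hq2, hq1]
  by_cases h4 : r * a = a * r
  · by_cases h5 : r * b = b * r
    · by_cases h6 : r * d = d * r
      · exfalso
        obtain ⟨u, hu, hu0⟩ := U_exists_ne (V := V) hr.ne
        have e1 := comm_fix hK (Or.inr hodd) hr ha h1 h4.symm hu
        have e2 := comm_fix hK (Or.inr hodd) hr hb h2 h5.symm hu
        have e3 := comm_fix hK (Or.inr hodd) hr hd h3 h6.symm hu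
        have hV := frame_U hK hodd hp ha hb hd hab hbd F hr hrY hu
        have h7 := frame_iota_neg hK hodd hp ha hb hd hab hbd F u hV
        have h8 := (frame_iota_mem hK hodd hp ha hb hd hab hbd F).2 u ⟨⟨e1, e2⟩, e3⟩
        rw [h7] at h8
        exact hu0 (hodd u (by grind))
      · rw [card_U_eq hK hr hd h6, hq2, hq1]
    · rw [card_U_eq hK hr hb h5, hq1]
  · exact card_U_eq hK hr ha h4

theorem frame_Vcard : Nat.card (Vp f a b : AddSubgroup V) ≤ Nat.card (U a : AddSubgroup V) ^ 3 := by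
  have hq1 := card_U_eq hK hb ha (Ne.symm hab)
  have h1 : Nat.card (Vp f a b : AddSubgroup V) ≤ _ := card_sup_le (U f) (Es a b)
  have h2 : Nat.card (Es a b : AddSubgroup V) ≤ _ := card_sup_le (U a) (U b)
  have h3 : Nat.card (U f : AddSubgroup V) = Nat.card (U a : AddSubgroup V) := by
    rw [card_U_eq hK F.hf hd F.fd, card_U_eq hK hd hb (Ne.symm hbd), hq1]
  rw [hq1] at h2
  rw [h3] at h1
  calc _ ≤ _ := h1
    _ ≤ Nat.card (U a : AddSubgroup V) * (Nat.card (U a : AddSubgroup V) * Nat.card (U a : AddSubgroup V)) :=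
      Nat.mul_le_mul_left _ h2
    _ = _ := by ring

end frame2

end Cfsg.Agent.BinAff
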