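import Cfsg.Agent.Lib.BinE

/-! Binary linear groups in odd characteristic: the trace argument. -/

set_option autoImplicit false

namespace Cfsg.Agent.BinAff

variable {V Γ : Type*} [AddCommGroup V] [Group Γ] [DistribMulAction Γ V]

section trace
variable [Finite V] {p : ℕ} [hpp : Fact p.Prime]

/-- a nonzero subgroup of an exponent `p` group has order divisible by `p` -/
theorem dvd_card_of_ne (hp : ∀ v : V, p • v = 0) (A : AddSubgroup V) {x : V} (hx : x ∈ A)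
    (h0 : x ≠ 0) : p ∣ Nat.card A := by
  have h1 : addOrderOf (⟨x, hx⟩ : A) = p := by
    apply addOrderOf_eq_prime
    · exact Subtype.ext (hp x)
    · exact fun h => h0 (congrArg Subtype.val h)
  rw [← h1]
  exact addOrderOf_dvd_natCard _

theorem sum_Omega [Fintype V] [DecidableEq V] (hp : ∀ v : V, p • v = 0) (V' : AddSubgroup V)
    [Fintype {v : V // v ∈ V' ∧ v ≠ 0}] (A : AddSubgroup V) [DecidablePred (· ∈ A)]
    [DecidablePred (· ∈ V')]
    (hA : A ≤ V') {x : V} (hx : x ∈ A) (h0 : x ≠ 0) :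
    (∑ z : {v : V // v ∈ V' ∧ v ≠ 0}, (if (z : V) ∈ A then (1 : ZMod p) else 0)) = -1 := by
  have h1 : (∑ z : {v : V // v ∈ V' ∧ v ≠ 0}, (if (z : V) ∈ A then (1 : ZMod p) else 0)) =
      ∑ v ∈ Finset.univ.filter (fun v : V => v ∈ V' ∧ v ≠ 0), (if v ∈ A then (1 : ZMod p) else 0) := by
    symm
    apply Finset.sum_subtype
    intro v
    simp
  rw [h1, Finset.sum_ite, Finset.sum_const_zero, add_zero, Finset.sum_const, nsmul_eq_mul, mul_one]
  have h2 : (Finset.univ.filter (fun v : V => v ∈ V' ∧ v ≠ 0)).filter (fun v => v ∈ A) =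
      Finset.univ.filter (fun v : V => v ∈ A ∧ v ≠ 0) := by
    ext v
    simp only [Finset.mem_filter, Finset.mem_univ, true_and]
    constructor
    · rintro ⟨⟨_, h⟩, h'⟩
      exact ⟨h', h⟩
    · rintro ⟨h', h⟩
      exact ⟨⟨hA h', h⟩, h'⟩
  rw [h2, card_filter_ne]
  have h3 : 1 ≤ Nat.card A := Nat.card_pos
  rw [Nat.cast_sub h3, Nat.cast_one, (ZMod.natCast_eq_zero_iff _ _).mpr (dvd_card_of_ne hp A hx h0),
    zero_sub]

variable {Q : Subgroup Γ} [FaithfulSMul Γ V]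

/-- the trace contradiction -/
theorem T_contra (hQ : Bin V Q) (hodd : ∀ v : V, v + v = 0 → v = 0) (hp : ∀ v : V, p • v = 0)
    (V' : AddSubgroup V) {ι : Γ} (hιQ : ι ∈ Q) (hι : ∀ v ∈ V', ι • v = -v) (q : ℕ) (hq : 1 < q)
    (hcard : Nat.card V' ≤ q ^ 3) (hne : ∃ v ∈ V', v ≠ 0)
    (hz : ∀ z ∈ V', z ≠ 0 → ∃ A B : AddSubgroup V, A ≤ V' ∧ B ≤ V' ∧ q ≤ Nat.card A ∧ q ≤ Nat.card B ∧
      (∀ x, x ∈ A → x ∈ B → x = 0) ∧ (∀ u ∈ A, ∃ g ∈ Q, g • u = -u ∧ g • z = z) ∧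
      (∀ u ∈ B, ∃ g ∈ Q, g • u = -u ∧ g • z = z)) : False := by
  classical
  letI : Fintype V := Fintype.ofFinite V
  -- the relation
  have hx_exists : ∀ x : V, ∃ h : Γ, x ∈ V' → (h ∈ Q ∧ h • x = -x ∧
      ∀ y : V, (∃ g ∈ Q, g • x = -x ∧ g • y = y) → h • y = y) := by
    intro x
    by_cases hxV : x ∈ V'
    · obtain ⟨a, ha, hax⟩ := half_mem hQ hodd V' (V'.neg_mem hxV)
      have hιa : ι • a = a + x := by
        rw [hι a ha]; grind
      obtain ⟨h, hh, hh'⟩ := kl hQ x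
      have e1 := hh' a ⟨ι, hιQ, hιa⟩
      have e2 : h • (a + a) = (a + x) + (a + x) := by rw [smul_add, e1]
      rw [hax, smul_neg] at e2
      have e3 : h • x = -x := by grind
      refine ⟨h, fun _ => ⟨hh, e3, ?_⟩⟩
      rintro y ⟨g, hg, hgx, hgy⟩
      have e4 : g • a = -a := by
        apply dbl_inj hodd
        rw [← smul_add, hax, smul_neg, hgx]
        grind
      have e5 := hh' (a + y) ⟨g, hg, by rw [smul_add, e4, hgy]; grind⟩
      rw [smul_add, e1] at e5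
      grind
    · exact ⟨1, fun h => absurd h hxV⟩
  choose hh hhp using hx_exists
  let Wx : V → AddSubgroup V := fun x => V' ⊓ W (hh x)
  have mem_Wx : ∀ x ∈ V', ∀ y : V, y ∈ Wx x ↔ y ∈ V' ∧ ∃ g ∈ Q, g • x = -x ∧ g • y = y := by
    intro x hx y
    obtain ⟨h1, h2, h3⟩ := hhp x hx
    constructor
    · rintro ⟨hy, hy'⟩
      exact ⟨hy, hh x, h1, h2, hy'⟩
    · rintro ⟨hy, hg⟩
      exact ⟨hy, h3 y hg⟩
  have hsym : ∀ x ∈ V', ∀ y ∈ V', y ∈ Wx x → x ∈ Wx y := by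
    intro x hx y hy hxy
    obtain ⟨_, g, hg, hgx, hgy⟩ := (mem_Wx x hx y).mp hxy
    refine (mem_Wx y hy x).mpr ⟨hx, ι * g, Q.mul_mem hιQ hg, ?_, ?_⟩
    · rw [mul_smul, hgy, hι y hy]
    · rw [mul_smul, hgx, smul_neg, hι x hx, neg_neg]
  have hdiag : ∀ x ∈ V', x ≠ 0 → x ∉ Wx x := by
    intro x hx h0 hxx
    have h1 : (hh x) • x = x := hxx.2
    rw [(hhp x hx).2.1] at h1
    exact h0 (hodd x (by grind))
  have hWcard : ∀ x ∈ V', x ≠ 0 → q * q ≤ Nat.card (Wx x) := by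
    intro x hx h0
    obtain ⟨A, B, hAV, hBV, hA, hB, hd, hgA, hgB⟩ := hz x hx h0
    have hAW : A ≤ Wx x := by
      intro u hu
      apply hsym u (hAV hu) x hx
      obtain ⟨g, hg, h1, h2⟩ := hgA u hu
      exact (mem_Wx u (hAV hu) x).mpr ⟨hx, g, hg, h1, h2⟩
    have hBW : B ≤ Wx x := by
      intro u hu
      apply hsym u (hBV hu) x hx
      obtain ⟨g, hg, h1, h2⟩ := hgB u hu
      exact (mem_Wx u (hBV hu) x).mpr ⟨hx, g, hg, h1, h2⟩
    exact (Nat.mul_le_mul hA hB).trans (card_mul_le_of_inf hAW hBW hd)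
  have hinter : ∀ x ∈ V', x ≠ 0 → ∀ y ∈ V', y ≠ 0 → ∃ v ∈ Wx x ⊓ Wx y, v ≠ 0 := by
    intro x hx hx0 y hy hy0
    by_contra hc
    push Not at hc
    have h1 := card_mul_le_of_inf (A := Wx x) (B := Wx y) (C := V') inf_le_left inf_le_left
      (fun v h2 h3 => hc v ⟨h2, h3⟩)
    have h2 := Nat.mul_le_mul (hWcard x hx hx0) (hWcard y hy hy0)
    have h3 := h2.trans (h1.trans hcard)
    have h4 : q ^ 3 < q * q * (q * q) := by
      have : q * q * (q * q) = q ^ 3 * q := by ring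
      rw [this]
      exact lt_mul_of_one_lt_right (pow_pos (by omega) 3) hq
    omega
  -- the matrix
  let Ω := {v : V // v ∈ V' ∧ v ≠ 0}
  letI : Fintype Ω := Fintype.ofFinite Ω
  let P : Matrix Ω Ω (ZMod p) := fun x y => if (y : V) ∈ Wx x then 1 else 0
  let J : Matrix Ω Ω (ZMod p) := fun _ _ => 1
  have hPP : P * P = -J := by
    ext x y
    rw [Matrix.mul_apply]
    have h1 : ∀ z : Ω, P x z * P z y = if (z : V) ∈ Wx x ⊓ Wx y then (1 : ZMod p) else 0 := by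
      intro z
      have h2 : (y : V) ∈ Wx z ↔ (z : V) ∈ Wx y :=
        ⟨hsym _ z.2.1 _ y.2.1, hsym _ y.2.1 _ z.2.1⟩
      simp only [P, h2, AddSubgroup.mem_inf]
      by_cases h3 : (z : V) ∈ Wx x <;> by_cases h4 : (z : V) ∈ Wx y <;> simp [h3, h4]
    rw [Finset.sum_congr rfl (fun z _ => h1 z)]
    obtain ⟨v, hv, hv0⟩ := hinter x x.2.1 x.2.2 y y.2.1 y.2.2
    rw [sum_Omega hp V' _ (le_trans inf_le_left inf_le_left) hv hv0]
    rfl
  have hPJ : P * J = -J := by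
    ext x y
    rw [Matrix.mul_apply]
    have h1 : ∀ z : Ω, P x z * J z y = if (z : V) ∈ Wx x then (1 : ZMod p) else 0 := by
      intro z
      simp only [P, J, mul_one]
    rw [Finset.sum_congr rfl (fun z _ => h1 z)]
    obtain ⟨v, hv, hv0⟩ := hinter x x.2.1 x.2.2 x x.2.1 x.2.2
    rw [sum_Omega hp V' _ inf_le_left hv.1 hv0]
    rfl
  obtain ⟨v₀, hv₀, hv₀0⟩ := hne
  have hJJ : J * J = -J := by
    ext x y
    rw [Matrix.mul_apply]
    have h1 : ∀ z : Ω, J x z * J z y = if (z : V) ∈ V' then (1 : ZMod p) else 0 := by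
      intro z
      simp [J, z.2.1]
    rw [Finset.sum_congr rfl (fun z _ => h1 z)]
    rw [sum_Omega hp V' _ le_rfl hv₀ hv₀0]
    rfl
  have hP3 : ∀ m : ℕ, P ^ (2 * m + 3) = J := by
    intro m
    induction m with
    | zero =>
      have : P ^ (2 * 0 + 3) = P * (P * P) := by
        rw [show 2 * 0 + 3 = 3 from rfl, pow_succ', pow_two]
      rw [this, hPP, mul_neg, hPJ, neg_neg]
    | succ m ih =>
      have : P ^ (2 * (m + 1) + 3) = (P * P) * P ^ (2 * m + 3) := by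
        rw [show 2 * (m + 1) + 3 = 2 + (2 * m + 3) by ring, pow_add, pow_two]
      rw [this, ih, hPP, neg_mul, hJJ, neg_neg]
  have hp2 : p ≠ 2 := by
    rintro rfl
    apply hv₀0
    apply hodd
    have := hp v₀
    rwa [two_nsmul] at this
  obtain ⟨m, hm⟩ : ∃ m, p = 2 * m + 3 := by
    have h1 := hpp.out.eq_two_or_odd
    have h2 := hpp.out.two_le
    refine ⟨(p - 3) / 2, ?_⟩
    omega
  have htr := ZMod.trace_pow_card P
  have hP1 : Matrix.trace P = 0 := by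
    rw [Matrix.trace]
    apply Finset.sum_eq_zero
    intro x _
    simp only [Matrix.diag, P]
    rw [if_neg (hdiag x x.2.1 x.2.2)]
  have hJ1 : Matrix.trace J = -1 := by
    rw [Matrix.trace]
    have h1 : ∀ z : Ω, Matrix.diag J z = if (z : V) ∈ V' then (1 : ZMod p) else 0 := by
      intro z
      simp [Matrix.diag, J, z.2.1]
    rw [Finset.sum_congr rfl (fun z _ => h1 z)]
    exact sum_Omega hp V' _ le_rfl hv₀ hv₀0
  have hPp : P ^ p = J := by
    have h1 : ∀ k, k = 2 * m + 3 → P ^ k = J := by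
      rintro k rfl
      exact hP3 m
    exact h1 p hm
  rw [hPp, hJ1, hP1, zero_pow hpp.out.ne_zero] at htr
  have h1 : (1 : ZMod p) = 0 := by
    have := congrArg Neg.neg htr
    simpa using this
  exact one_ne_zero h1

end trace

end Cfsg.Agent.BinAff
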