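import Cfsg.Agent.Lib.BinF

/-! Binary linear groups in odd characteristic: excluding paths leaving a line. -/

set_option autoImplicit false

namespace Cfsg.Agent.BinAff

variable {V Γ : Type*} [AddCommGroup V] [Group Γ] [DistribMulAction Γ V]

section gen
variable {Q : Subgroup Γ} [Finite V] [FaithfulSMul Γ V]
  (hQ : Bin V Q) (hodd : ∀ v : V, v + v = 0 → v = 0)
include hQ hodd

/-- a vector fixed by exactly one root has stabilizer of order two -/
theorem gen {z : V} {φ : Γ} (hφ : IsRt V Q φ) (hφz : φ • z = z)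
    (huniq : ∀ r, IsRt V Q r → r • z = z → r = φ) : ∀ g ∈ Q, g • z = z → g = 1 ∨ g = φ := by
  obtain ⟨v, hv, hv0⟩ := U_exists_ne (V := V) hφ.ne
  have hφv : φ • v = -v := hφ.neg hQ hv
  have hreg : ∀ g ∈ Fx Q ({z} : Set V), g • v = v → g = 1 := by
    intro g hg hgv
    by_contra h1
    obtain ⟨r, hr, hgr⟩ := exists_root (V := V) hg.1 h1
    have h2 := huniq r hr (hgr z (hg.2 z rfl))
    subst h2
    have h3 := hgr v hgv
    rw [hφv] at h3
    exact hv0 (hodd v (by grind))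
  have hexp := reg (hQ.fx _) hreg
  intro g hgQ hgz
  by_cases h1 : g = 1
  · exact Or.inl h1
  right
  have hgB : g ∈ Fx Q ({z} : Set V) := ⟨hgQ, by rintro _ rfl; exact hgz⟩
  have hφB : φ ∈ Fx Q ({z} : Set V) := ⟨hφ.mem, by rintro _ rfl; exact hφz⟩
  have hc : g * φ = φ * g := by
    by_contra hnc
    exact sq_ne_of_noncomm (hexp g hgB) (hexp φ hφB) hnc (hexp _ (Subgroup.mul_mem _ hgB hφB))
  rcases sign_of_mem hQ hφ hgQ hv (smul_mem_U_of_comm hc hv) with h2 | h2
  · exact absurd (hreg g hgB h2) h1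
  · have h3 : g * φ = 1 := hreg _ (Subgroup.mul_mem _ hgB hφB) (by
      rw [mul_smul, hφv, smul_neg, h2, neg_neg])
    have h4 := hexp φ hφB
    calc g = g * (φ * φ) := by rw [h4, mul_one]
      _ = (g * φ) * φ := by rw [mul_assoc]
      _ = φ := by rw [h3, one_mul]

end gen

section G
variable {K : Subgroup Γ} [Finite V] [Finite Γ] [FaithfulSMul Γ V]
  (hK : Bin V K) (hodd : ∀ v : V, v + v = 0 → v = 0) {p : ℕ} [hpp : Fact p.Prime]
  (hp : ∀ v : V, p • v = 0)
include hK hodd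

omit [Finite Γ] in
theorem no_neg {r s : Γ} (hr : IsRt V K r) (hs : IsRt V K s) (hrs : r * s ≠ s * r) {v : V}
    (h : (r * s) • v = -v) : v = 0 := by
  rw [mul_smul] at h
  have h1 : s • v = -(r • v) := by
    have := congrArg (fun x => r • x) h
    simpa [hr.smul_smul hK] using this
  have h2 : r • (v + r • v) = v + r • v := by
    rw [smul_add, hr.smul_smul hK]; abel
  have h3 : v + r • v ∈ (U s : AddSubgroup V) := by
    refine ⟨-v, ?_⟩
    rw [smul_neg, h1]; abel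
  have h4 := noncomm_fix hK hs hr (Ne.symm hrs) h3 h2
  have h5 : r • v = -v := by grind
  have h6 : s • v = v := by rw [h1, h5, neg_neg]
  exact noncomm_fix hK hr hs hrs (mem_U_of_neg hodd h5) h6

omit [Finite Γ] in
theorem sq_fix_zero {r s : Γ} (hr : IsRt V K r) (hs : IsRt V K s) (hrs : r * s ≠ s * r) {u : V}
    (hu : u ∈ (Es r s : AddSubgroup V)) (h : (r * s) • (r * s) • u = u) : u = 0 := by
  have hne : r ≠ s := by
    rintro rfl
    exact hrs rfl
  have h1 : (r * s) • ((r * s) • u + u) = (r * s) • u + u := by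
    rw [smul_add, h]; abel
  obtain ⟨e1, e2⟩ := fix_prod hK hr hs hne h1
  have h2 : (r * s) • u + u ∈ (Es r s : AddSubgroup V) := by
    have h3 := dm_prod_mem r s u (V := V) (fun w _ => dm_mem_U r w)
    have : (r * s) • u + u = ((r * s) • u - u) + (u + u) := by abel
    rw [this]
    exact (Es r s : AddSubgroup V).add_mem h3 ((Es r s : AddSubgroup V).add_mem hu hu)
  have h4 := line_disj hK hodd hr hs h2 e1 e2
  exact no_neg hK hodd hr hs hrs (by grind)

include hp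

/-- step of case G: the unique root fixing a vector inverts products of noncommuting roots -/
theorem G_inv {Y : Set V} {z : V} {φ : Γ} (hφ : IsRt V K φ) (hφY : ∀ v ∈ Y, φ • v = v)
    (hz : ∀ g ∈ Fx K Y, g • z = z → g = 1 ∨ g = φ)
    {r s : Γ} (hr : IsRt V K r) (hs : IsRt V K s) (hrY : ∀ v ∈ Y, r • v = v) (hsY : ∀ v ∈ Y, s • v = v)
    (hrs : r * s ≠ s * r) : φ * (r * s) * φ = (r * s)⁻¹ := by
  have hrQ : r ∈ Fx K Y := ⟨hr.mem, hrY⟩
  have hsQ : s ∈ Fx K Y := ⟨hs.mem, hsY⟩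
  have hφ2 := hφ.sq hK
  have hr2 := hr.sq hK
  have hs2 := hs.sq hK
  rcases rule (hK.fx Y) hφ2 hz (r * s) (Subgroup.mul_mem _ hrQ hsQ) with h | h | h
  · exact absurd h (sq_ne_of_noncomm hr2 hs2 hrs)
  · exfalso
    have hri : r⁻¹ = r := hr.inv hK
    have hsi : s⁻¹ = s := hs.inv hK
    have hφi : φ⁻¹ = φ := hφ.inv hK
    have h1 : r * φ = φ * r := by
      have h2 : r * φ * r = φ := by
        have h3 : r * (r * s * (r * s)) * r = ((r * s) * (r * s))⁻¹ := by
          rw [_root_.mul_inv_rev, _root_.mul_inv_rev, hri, hsi]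
          calc r * (r * s * (r * s)) * r = (r * r) * (s * r * s * r) := by group
            _ = s * r * (s * r) := by rw [hr2]; group
        rw [h, hφi] at h3
        exact h3
      calc r * φ = r * φ * r * r := by rw [mul_assoc (r * φ), hr2, mul_one]
        _ = φ * r := by rw [h2]
    have h1' : s * φ = φ * s := by
      have h2 : s * φ * s = φ := by
        have h3 : s * (r * s * (r * s)) * s = ((r * s) * (r * s))⁻¹ := by
          rw [_root_.mul_inv_rev, _root_.mul_inv_rev, hri, hsi]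
          calc s * (r * s * (r * s)) * s = (s * r) * (s * r) * (s * s) := by group
            _ = s * r * (s * r) := by rw [hs2]; group
        rw [h, hφi] at h3
        exact h3
      calc s * φ = s * φ * s * s := by rw [mul_assoc (s * φ), hs2, mul_one]
        _ = φ * s := by rw [h2]
    have hne : r ≠ φ := by
      rintro rfl
      apply hs.ne
      -- r s r s = r
      have h2 : r * s * (r * s) = r := h
      have h3 : s * r * s = 1 := by
        calc s * r * s = r⁻¹ * (r * s * (r * s)) := by group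
          _ = 1 := by rw [h2]; group
      have h4 : r = s⁻¹ * s⁻¹ := by
        calc r = s⁻¹ * (s * r * s) * s⁻¹ := by group
          _ = s⁻¹ * s⁻¹ := by rw [h3]; group
      exfalso
      apply hr.ne
      rw [h4, hsi, hs2]
    obtain ⟨u, hu, hu0⟩ := U_exists_ne (V := V) hr.ne
    have hφu : φ • u = u := comm_fix hK (Or.inr hodd) hr hφ hne h1.symm hu
    apply hu0
    refine sq_fix_zero hK hodd hr hs hrs (U_le_Es_left r s hu) ?_
    rw [← mul_smul, h, hφu]
  · exact h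

/-- step of case G: the unique root fixing a vector is on every line -/
theorem G_line {Y : Set V} {z : V} {φ : Γ} (hφ : IsRt V K φ) (hφY : ∀ v ∈ Y, φ • v = v)
    (hz : ∀ g ∈ Fx K Y, g • z = z → g = 1 ∨ g = φ)
    {r s : Γ} (hr : IsRt V K r) (hs : IsRt V K s) (hrY : ∀ v ∈ Y, r • v = v) (hsY : ∀ v ∈ Y, s • v = v)
    (hrs : r * s ≠ s * r) : (U φ : AddSubgroup V) ≤ Es r s := by
  have h1 := G_inv hK hodd hp hφ hφY hz hr hs hrY hsY hrs
  have hφ2 := hφ.sq hK
  have hne : r ≠ s := by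
    rintro rfl
    exact hrs rfl
  set c := r * s with hc
  have hcB : c ∈ Fx K ((Xs r s : AddSubgroup V) : Set V) :=
    Subgroup.mul_mem _ (a_mem_B hK hr hs hrs) (b_mem_B hK hr hs hrs)
  have h2 : φ * c = c⁻¹ * φ := by
    calc φ * c = φ * c * φ * φ := by rw [mul_assoc (φ * c), hφ2, mul_one]
      _ = c⁻¹ * φ := by rw [h1]
  -- `φ` preserves the line
  have hinv : ∀ e ∈ (Es r s : AddSubgroup V), φ • e ∈ (Es r s : AddSubgroup V) := by
    intro e he
    obtain ⟨w, rfl⟩ := Es_eq_range hK hodd hr hs hne he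
    have h3 : φ • (c • w - w) = -(c⁻¹ • (c • (φ • w) - φ • w)) := by
      rw [smul_sub, ← mul_smul, h2, mul_smul, smul_sub, inv_smul_smul]
      abel
    rw [h3]
    apply AddSubgroup.neg_mem
    apply ln_inv hK hodd hp hr hs hrs _ (Subgroup.inv_mem _ hcB)
    exact dm_prod_mem r s _ (fun u _ => dm_mem_U r u)
  -- `φ` moves a vector of the line
  have hmove : ∃ e ∈ (Es r s : AddSubgroup V), φ • e ≠ e := by
    by_contra hc'
    push Not at hc'
    obtain ⟨u, hu, hu0⟩ := U_exists_ne (V := V) hr.ne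
    have huE := U_le_Es_left r s hu
    have h3 := hc' _ (ln_inv hK hodd hp hr hs hrs c hcB u huE)
    have h4 := hc' u huE
    rw [← mul_smul, h2, mul_smul, h4] at h3
    apply hu0
    refine sq_fix_zero hK hodd hr hs hrs huE ?_
    rw [← h3, smul_inv_smul]
  obtain ⟨e, he, hne'⟩ := hmove
  have hx0 : φ • e - e ≠ 0 := sub_ne_zero.mpr hne'
  obtain ⟨ρ, hρ, hxρ⟩ := ln_count hK hodd hp hr hs hrs
    ((Es r s : AddSubgroup V).sub_mem (hinv e he) he) hx0
  rw [R2 hK hφ hρ.1 hx0 (dm_mem_U φ e) hxρ]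
  exact ln_U hK hodd hp hr hs hrs hρ

/-- a root on two different lines through `b` equals `b` -/
theorem two_lines_eq {a b d : Γ} (ha : IsRt V K a) (hb : IsRt V K b) (hd : IsRt V K d)
    (hab : a * b ≠ b * a) (hbd : b * d ≠ d * b) (hout : ¬ (U d : AddSubgroup V) ≤ Es a b)
    {ρ : Γ} (hρ : IsRt V K ρ) (h1 : (U ρ : AddSubgroup V) ≤ Es a b)
    (h2 : (U ρ : AddSubgroup V) ≤ Es b d) : ρ = b := by
  by_contra hne
  have hb_a : RL V K a b b := ⟨hb, fun v _ h => h⟩
  have hb_d : RL V K b d b := ⟨hb, fun v h _ => h⟩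
  have e1 := ln_Es_eq hK hodd hp ha hb hab hb_a (RL_of_U_le hK hodd hp ha hb hab hρ h1) (Ne.symm hne)
  have e2 := ln_Es_eq hK hodd hp hb hd hbd hb_d (RL_of_U_le hK hodd hp hb hd hbd hρ h2) (Ne.symm hne)
  apply hout
  rw [← e1, e2]
  exact U_le_Es_right b d

/-- case G is impossible -/
theorem G_contra {a b d : Γ} (ha : IsRt V K a) (hb : IsRt V K b) (hd : IsRt V K d)
    (hab : a * b ≠ b * a) (hbd : b * d ≠ d * b) (hout : ¬ (U d : AddSubgroup V) ≤ Es a b)
    {Y : Set V} (haY : ∀ v ∈ Y, a • v = v) (hbY : ∀ v ∈ Y, b • v = v) (hdY : ∀ v ∈ Y, d • v = v)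
    {z : V} {φ : Γ} (hφ : IsRt V K φ) (hφY : ∀ v ∈ Y, φ • v = v)
    (hz : ∀ g ∈ Fx K Y, g • z = z → g = 1 ∨ g = φ) : False := by
  have hL := fun {r s : Γ} => G_line hK hodd hp hφ hφY hz (r := r) (s := s)
  have h1 : φ = b := two_lines_eq hK hodd hp ha hb hd hab hbd hout hφ
    (hL ha hb haY hbY hab) (hL hb hd hbY hdY hbd)
  subst h1
  have hdi : d⁻¹ = d := hd.inv hK
  -- conjugate the pair `a, b` by `d`
  have hcY : ∀ {r : Γ}, (∀ v ∈ Y, r • v = v) → ∀ v ∈ Y, (d * r * d⁻¹) • v = v := by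
    intro r hr v hv
    have h0 : d⁻¹ • v = v := by rw [inv_smul_eq_iff, hdY v hv]
    rw [mul_smul, mul_smul, h0, hr v hv, hdY v hv]
  have h2 := hL (ha.conj hd.mem) (hb.conj hd.mem) (hcY haY) (hcY hbY) (by
    intro h
    apply hab
    have h3 : d⁻¹ * ((d * a * d⁻¹) * (d * φ * d⁻¹)) * d = d⁻¹ * ((d * φ * d⁻¹) * (d * a * d⁻¹)) * d := by
      rw [h]
    simpa [mul_assoc] using h3)
  obtain ⟨x, hx, hx0⟩ := U_exists_ne (V := V) hb.ne
  have hdx : d • x ∈ (Es a φ : AddSubgroup V) := by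
    obtain ⟨α, hα, β, hβ, e⟩ := mem_Es.mp (h2 hx)
    have e1 := smul_mem_U_conj (d * a * d⁻¹) d⁻¹ hα
    have e2 := smul_mem_U_conj (d * φ * d⁻¹) d⁻¹ hβ
    have e3 : d⁻¹ * (d * a * d⁻¹) * d⁻¹⁻¹ = a := by group
    have e4 : d⁻¹ * (d * φ * d⁻¹) * d⁻¹⁻¹ = φ := by group
    rw [e3] at e1
    rw [e4] at e2
    rw [← hdi] at e1 e2
    have e5 : d • x = d • α + d • β := by
      rw [← e, smul_add]
    rw [e5]
    rw [hdi] at e1 e2
    have e6 : d⁻¹ • α = d • α := by rw [hdi]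
    have e7 : d⁻¹ • β = d • β := by rw [hdi]
    rw [← e6, ← e7]
    exact AddSubgroup.add_mem_sup e1 e2
  have hdx0 : d • x ≠ 0 := fun h => hx0 (by simpa using congrArg (fun y => d⁻¹ • y) h)
  have hdx2 : d • x ∈ (Es φ d : AddSubgroup V) :=
    ln_inv hK hodd hp hb hd hbd d (b_mem_B hK hb hd hbd) x (U_le_Es_left φ d hx)
  obtain ⟨ρ, hρ, hxρ⟩ := ln_count hK hodd hp ha hb hab hdx hdx0
  obtain ⟨ρ', hρ', hxρ'⟩ := ln_count hK hodd hp hb hd hbd hdx2 hdx0
  have e8 := R2 hK hρ.1 hρ'.1 hdx0 hxρ hxρ'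
  have e9 := two_lines_eq hK hodd hp ha hb hd hab hbd hout hρ.1
    (ln_U hK hodd hp ha hb hab hρ) (e8 ▸ ln_U hK hodd hp hb hd hbd hρ')
  rw [e9] at hxρ
  exact hbd (comm_of_mem hK hb hd.mem hx hx0 hxρ).symm

/-- the path lemma -/
theorem path {a b d : Γ} (ha : IsRt V K a) (hb : IsRt V K b) (hd : IsRt V K d)
    (hab : a * b ≠ b * a) (hbd : b * d ≠ d * b) : (U d : AddSubgroup V) ≤ Es a b := by
  by_contra hout
  obtain ⟨f, p₁, F⟩ := frame_exists hK hodd hp ha hb hd hab hbd hout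
  have hYa : ∀ v ∈ ((Yy a b d : AddSubgroup V) : Set V), a • v = v := fun v hv => hv.1.1
  have hYb : ∀ v ∈ ((Yy a b d : AddSubgroup V) : Set V), b • v = v := fun v hv => hv.1.2
  have hYd : ∀ v ∈ ((Yy a b d : AddSubgroup V) : Set V), d • v = v := fun v hv => hv.2
  have hQ := hK.fx ((Yy a b d : AddSubgroup V) : Set V)
  have hq : 1 < Nat.card (U a : AddSubgroup V) := by
    obtain ⟨u, hu, hu0⟩ := U_exists_ne (V := V) ha.ne
    exact one_lt_card_of_ne _ hu hu0
  by_cases hex : ∀ z ∈ (Vp f a b : AddSubgroup V), z ≠ 0 → ∃ r s : Γ, IsRt V K r ∧ IsRt V K s ∧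
      (∀ v ∈ ((Yy a b d : AddSubgroup V) : Set V), r • v = v) ∧
      (∀ v ∈ ((Yy a b d : AddSubgroup V) : Set V), s • v = v) ∧ r ≠ s ∧ r • z = z ∧ s • z = z
  · -- every vector is fixed by two roots: trace argument
    refine T_contra (p := p) hQ hodd hp (Vp f a b) (frame_iota_mem hK hodd hp ha hb hd hab hbd F)
      (frame_iota_neg hK hodd hp ha hb hd hab hbd F) _ hq
      (frame_Vcard hK hodd hp ha hb hd hab hbd F) ?_ ?_
    · obtain ⟨u, hu, hu0⟩ := U_exists_ne (V := V) ha.ne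
      exact ⟨u, AddSubgroup.mem_sup_right (U_le_Es_left a b hu), hu0⟩
    · intro z hz hz0
      obtain ⟨r, s, hr, hs, hrY, hsY, hne, hrz, hsz⟩ := hex z hz hz0
      refine ⟨U r, U s, frame_U hK hodd hp ha hb hd hab hbd F hr hrY,
        frame_U hK hodd hp ha hb hd hab hbd F hs hsY,
        (frame_card hK hodd hp ha hb hd hab hbd F hr hrY).ge,
        (frame_card hK hodd hp ha hb hd hab hbd F hs hsY).ge, ?_, ?_, ?_⟩
      · intro x h1 h2
        by_contra h0
        exact hne (R2 hK hr hs h0 h1 h2)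
      · intro u hu
        exact ⟨r, ⟨hr.mem, hrY⟩, hr.neg hK hu, hrz⟩
      · intro u hu
        exact ⟨s, ⟨hs.mem, hsY⟩, hs.neg hK hu, hsz⟩
  · push Not at hex
    obtain ⟨z, _, _, hz⟩ := hex
    -- some root fixes `z`
    have hex2 : ∃ g ∈ Fx K ((Yy a b d : AddSubgroup V) : Set V), g • z = z ∧ g ≠ 1 := by
      by_contra hc
      push Not at hc
      have h1 := reg hQ (z := z) hc (a * b) (Subgroup.mul_mem _ ⟨ha.mem, hYa⟩ ⟨hb.mem, hYb⟩)
      exact sq_ne_of_noncomm (ha.sq hK) (hb.sq hK) hab h1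
    obtain ⟨g, hg, hgz, hg1⟩ := hex2
    obtain ⟨φ, hφ, hgφ⟩ := exists_root (V := V) hg.1 hg1
    have hφY : ∀ v ∈ ((Yy a b d : AddSubgroup V) : Set V), φ • v = v := fun v hv => hgφ v (hg.2 v hv)
    have hφz := hgφ z hgz
    have huniq : ∀ r, IsRt V (Fx K ((Yy a b d : AddSubgroup V) : Set V)) r → r • z = z → r = φ := by
      intro r hr hrz
      by_contra hne
      exact hz r φ hr.of_fx hφ hr.mem.2 hφY hne hrz hφz
    exact G_contra hK hodd hp ha hb hd hab hbd hout hYa hYb hYd hφ hφY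
      (gen hQ hodd (hφ.fx hφY) hφz huniq)

end G

end Cfsg.Agent.BinAff
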