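import Cfsg.Agent.Lib.BinG

/-! Binary linear groups in odd characteristic: the line is everything. -/

set_option autoImplicit false

namespace Cfsg.Agent.BinAff

variable {V Γ : Type*} [AddCommGroup V] [Group Γ] [DistribMulAction Γ V]

variable (V) in
/-- the final dihedral hypotheses -/
structure DH (K : Subgroup Γ) (q : ℕ) : Prop where
  qgt : 1 < q
  cardV : Nat.card V = q * q
  stab : ∀ z : V, z ≠ 0 → ∃ φ, IsRt V K φ ∧ φ • z = z ∧ ∀ g ∈ K, g • z = z → g = 1 ∨ g = φ
  cardW : ∀ t, IsRt V K t → Nat.card (W t : AddSubgroup V) = q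
  nosq : ∀ t, IsRt V K t → ∀ h ∈ K, h * h ≠ t

/-- the two-sided prime alternative: `K` acts by signs and `V` has prime order -/
def PrimeCase (V : Type*) [AddCommGroup V] {Γ : Type*} [Group Γ] [DistribMulAction Γ V]
    (K : Subgroup Γ) : Prop :=
  (Nat.card V).Prime ∧ ∀ h ∈ K, (∀ v : V, h • v = v) ∨ (∀ v : V, h • v = -v)

/-- sign actions and irreducibility give prime order -/
theorem prime_of_sign [Finite V] [Nontrivial V] {K : Subgroup Γ} {p : ℕ} [hpp : Fact p.Prime]
    (hp : ∀ v : V, p • v = 0)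
    (hirr : ∀ A : AddSubgroup V, (∀ g ∈ K, ∀ x ∈ A, g • x ∈ A) → A = ⊥ ∨ A = ⊤)
    (hs : ∀ h ∈ K, (∀ v : V, h • v = v) ∨ (∀ v : V, h • v = -v)) : (Nat.card V).Prime := by
  obtain ⟨v, hv⟩ := exists_ne (0 : V)
  have h1 : AddSubgroup.zmultiples v = ⊤ ∨ AddSubgroup.zmultiples v = ⊥ := by
    rcases hirr (AddSubgroup.zmultiples v) (by
      intro g hg x hx
      rcases hs g hg with h | h
      · rw [h]; exact hx
      · rw [h]; exact AddSubgroup.neg_mem _ hx) with h | h
    · exact Or.inr h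
    · exact Or.inl h
  rcases h1 with h1 | h1
  · have h2 : addOrderOf v = p := addOrderOf_eq_prime (hp v) hv
    have h3 : Nat.card (AddSubgroup.zmultiples v) = addOrderOf v := Nat.card_zmultiples v
    rw [h1, AddSubgroup.card_top, h2] at h3
    rw [h3]
    exact hpp.out
  · exfalso
    apply hv
    have : v ∈ AddSubgroup.zmultiples v := AddSubgroup.mem_zmultiples v
    rw [h1] at this
    simpa using this

section comps
variable {K : Subgroup Γ} [Finite V] [Finite Γ] [FaithfulSMul Γ V]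
  (hK : Bin V K) (hodd : ∀ v : V, v + v = 0 → v = 0) {p : ℕ} [hpp : Fact p.Prime]
  (hp : ∀ v : V, p • v = 0)
include hK hodd hp

theorem comps1 {d c : Γ} (hd : IsRt V K d) (hc : IsRt V K c) (hdc : d * c ≠ c * d) {g : Γ} (hg : g ∈ K)
    {x : V} (hx : x ∈ (U d : AddSubgroup V)) : g • x ∈ (Es d c : AddSubgroup V) := by
  by_contra hx'
  have hx0 : x ≠ 0 := by
    rintro rfl
    rw [smul_zero] at hx'
    exact hx' (AddSubgroup.zero_mem _)
  have hd' := hd.conj hg
  set d' := g * d * g⁻¹ with hd'def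
  have hx'U : g • x ∈ (U d' : AddSubgroup V) := smul_mem_U_conj d g hx
  have hout : ¬ (U d' : AddSubgroup V) ≤ Es d c := fun h => hx' (h hx'U)
  have hx'0 : g • x ≠ 0 := fun h => hx0 (by simpa using congrArg (fun y => g⁻¹ • y) h)
  have hc1 : d' * d = d * d' := by
    by_contra hnc
    apply hout
    have := path hK hodd hp hc hd hd' (Ne.symm hdc) (Ne.symm hnc)
    rwa [show (Es c d : AddSubgroup V) = Es d c from sup_comm _ _] at this
  have hc2 : d' * c = c * d' := by
    by_contra hnc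
    exact hout (path hK hodd hp hd hc hd' hdc (Ne.symm hnc))
  have hne1 : d' ≠ d := by
    intro h
    rw [h] at hx'U
    exact hx' (U_le_Es_left d c hx'U)
  have hne2 : d' ≠ c := by
    intro h
    rw [h] at hx'U
    exact hx' (U_le_Es_right d c hx'U)
  have hEfix : (Es d c : AddSubgroup V) ≤ W d' := by
    refine sup_le ?_ ?_
    · intro u hu
      exact comm_fix hK (Or.inr hodd) hd hd' (Ne.symm hne1) hc1 hu
    · intro u hu
      exact comm_fix hK (Or.inr hodd) hc hd' (Ne.symm hne2) hc2 hu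
  have hdfix : ∀ u ∈ (U d' : AddSubgroup V), d • u = u := fun u hu =>
    comm_fix hK (Or.inr hodd) hd' hd hne1 hc1.symm hu
  have hd_l : RL V K d c d := ⟨hd, fun v h _ => h⟩
  have hc_l : RL V K d c c := ⟨hc, fun v _ h => h⟩
  obtain ⟨r, hr, hrne, hrc, h1, h2⟩ := ln_partner hK hodd hp hd hc hdc hd_l
  have hUrW : ∀ u ∈ (U r : AddSubgroup V), d • u = u := by
    intro u hu
    rw [← h1] at hu
    exact hu.1
  have hUrE := ln_U hK hodd hp hd hc hdc hr
  -- the half of the difference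
  have hz : x - g • x ∈ (U d ⊔ U d' : AddSubgroup V) :=
    AddSubgroup.sub_mem _ (AddSubgroup.mem_sup_left hx) (AddSubgroup.mem_sup_right hx'U)
  obtain ⟨a₀, ha₀, ha₀2⟩ := half_mem hK hodd _ (AddSubgroup.neg_mem _ hz)
  have hmul : d * d' ∈ K := K.mul_mem hd.mem hd'.mem
  have hneg : (d * d') • a₀ = -a₀ := by
    obtain ⟨α, hα, β, hβ, rfl⟩ := AddSubgroup.mem_sup.mp ha₀
    have e1 : d' • α = α := hEfix (U_le_Es_left d c hα)
    rw [mul_smul, smul_add, e1, hd'.neg hK hβ, smul_add, hd.neg hK hα, smul_neg, hdfix β hβ]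
    abel
  obtain ⟨h, hh, hkl⟩ := kl hK (x - g • x)
  have e1 : h • a₀ = a₀ + (x - g • x) := hkl a₀ ⟨d * d', hmul, by rw [hneg]; grind⟩
  have e2 : ∀ u ∈ (U r : AddSubgroup V), h • u = u := by
    intro u hu
    have e3 : d' • u = u := hEfix (hUrE hu)
    have := hkl (a₀ + u) ⟨d * d', hmul, by
      rw [smul_add, hneg, mul_smul, e3, hUrW u hu]; grind⟩
    rw [smul_add, e1] at this
    grind
  have e3 : h • (g • x) = x := by
    have := hkl (g • x) ⟨g⁻¹, K.inv_mem hg, by rw [inv_smul_smul]; abel⟩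
    rw [this]; abel
  have e4 : h • x = g • x := by
    have := hkl (-x) ⟨g, hg, by rw [smul_neg]; abel⟩
    rw [smul_neg] at this
    grind
  have hconj : h * d * h⁻¹ = d' := by
    refine R2 hK (hd.conj hh) hd' hx'0 ?_ hx'U
    rw [← e4]
    exact smul_mem_U_conj d h hx
  obtain ⟨u₀, hu₀, hu₀0⟩ := U_exists_ne (V := V) hr.1.ne
  have hhr : h * r = r * h := comm_of_fix hK hr.1 hh hu₀ hu₀0 (e2 u₀ hu₀)
  -- `c` does not commute with `r`
  have hne3 : c ≠ r := by
    rintro rfl
    exact hdc hrc.symm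
  have hcr : c * r ≠ r * c := by
    intro hcomm
    have h3 : (U c : AddSubgroup V) ≤ U d := by
      rw [← h2]
      intro u hu
      exact ⟨comm_fix hK (Or.inr hodd) hc hr.1 hne3 hcomm.symm hu, U_le_Es_right d c hu⟩
    obtain ⟨u, hu, hu0⟩ := U_exists_ne (V := V) hc.ne
    have := R2 hK hd hc hu0 (h3 hu) hu
    rw [this] at hdc
    exact hdc rfl
  have he' := hc.conj hh
  set e' := h * c * h⁻¹ with he'def
  have hre' : r * e' ≠ e' * r := by
    intro hcomm
    apply hcr
    have e5 : h⁻¹ * r * h = r := by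
      calc h⁻¹ * r * h = h⁻¹ * (r * h) := by group
        _ = h⁻¹ * (h * r) := by rw [hhr]
        _ = r := by group
    have e6 : h⁻¹ * (r * e') * h = h⁻¹ * (e' * r) * h := by rw [hcomm]
    have e7 : h⁻¹ * (r * e') * h = (h⁻¹ * r * h) * c := by rw [he'def]; group
    have e8 : h⁻¹ * (e' * r) * h = c * (h⁻¹ * r * h) := by rw [he'def]; group
    rw [e7, e8, e5] at e6
    exact e6.symm
  have hpath := path hK hodd hp hc hr.1 he' hcr hre'
  rw [ln_Es_eq hK hodd hp hd hc hdc hc_l hr hne3] at hpath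
  obtain ⟨u, hu, hu0⟩ := U_exists_ne (V := V) he'.ne
  have e9 : d' • u = u := hEfix (hpath hu)
  apply hu0
  refine noncomm_fix hK he' hd' ?_ hu e9
  intro hcomm
  apply hdc
  have e10 : h⁻¹ * (e' * d') * h = h⁻¹ * (d' * e') * h := by rw [hcomm]
  rw [← hconj, he'def] at e10
  have e11 : h⁻¹ * (h * c * h⁻¹ * (h * d * h⁻¹)) * h = c * d := by group
  have e12 : h⁻¹ * (h * d * h⁻¹ * (h * c * h⁻¹)) * h = d * c := by group
  rw [e11, e12] at e10
  exact e10.symm

theorem E_inv {a b : Γ} (ha : IsRt V K a) (hb : IsRt V K b) (hab : a * b ≠ b * a) {g : Γ} (hg : g ∈ K)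
    {e : V} (he : e ∈ (Es a b : AddSubgroup V)) : g • e ∈ (Es a b : AddSubgroup V) := by
  obtain ⟨α, hα, β, hβ, rfl⟩ := mem_Es.mp he
  rw [smul_add]
  refine AddSubgroup.add_mem _ (comps1 hK hodd hp ha hb hab hg hα) ?_
  have := comps1 hK hodd hp hb ha (Ne.symm hab) hg hβ
  rwa [show (Es b a : AddSubgroup V) = Es a b from sup_comm _ _] at this

/-- the irreducible odd case with two noncommuting roots -/
theorem odd_DH (hirr : ∀ A : AddSubgroup V, (∀ g ∈ K, ∀ x ∈ A, g • x ∈ A) → A = ⊥ ∨ A = ⊤)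
    {a b : Γ} (ha : IsRt V K a) (hb : IsRt V K b) (hab : a * b ≠ b * a) :
    DH V K (Nat.card (U a : AddSubgroup V)) := by
  have hq : 1 < Nat.card (U a : AddSubgroup V) := by
    obtain ⟨u, hu, hu0⟩ := U_exists_ne (V := V) ha.ne
    exact one_lt_card_of_ne _ hu hu0
  have hE : (Es a b : AddSubgroup V) = ⊤ := by
    rcases hirr (Es a b) (fun g hg x hx => E_inv hK hodd hp ha hb hab hg hx) with h | h
    · exfalso
      obtain ⟨u, hu, hu0⟩ := U_exists_ne (V := V) ha.ne
      have := U_le_Es_left a b hu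
      rw [h] at this
      exact hu0 (by simpa using this)
    · exact h
  have hRL : ∀ {t : Γ}, IsRt V K t → RL V K a b t := fun ht =>
    RL_of_U_le hK hodd hp ha hb hab ht (by rw [hE]; exact le_top)
  have hV : Nat.card V = Nat.card (U a : AddSubgroup V) * Nat.card (U a : AddSubgroup V) := by
    have := card_Es' hK hodd hp ha hb hab
    rwa [hE, AddSubgroup.card_top] at this
  refine ⟨hq, hV, ?_, ?_, ?_⟩
  · intro z hz0
    obtain ⟨r, hr, hrz⟩ := ln_cover hK hodd hp ha hb hab z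
    refine ⟨r, hr.1, hrz, gen hK hodd hr.1 hrz ?_⟩
    intro s hs hsz
    by_contra hne
    exact hz0 (ln_disjW hK hodd hp ha hb hab (hRL hs) hr hne (by rw [hE]; trivial) hsz hrz)
  · intro t ht
    have h1 := card_W_mul_U (V := V) t
    rw [hV, ln_card hK hodd hp ha hb hab (hRL ht)] at h1
    exact Nat.eq_of_mul_eq_mul_right (by omega) h1
  · intro t ht h hh hsq
    obtain ⟨u, hu, hu0⟩ := U_exists_ne (V := V) ht.ne
    have hc : h * t = t * h := by rw [← hsq, mul_assoc]
    have h1 : (h * h) • u = u := by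
      rw [mul_smul]
      rcases sign_of_mem hK ht hh hu (smul_mem_U_of_comm hc hu) with h2 | h2
      · rw [h2, h2]
      · rw [h2, smul_neg, h2, neg_neg]
    rw [hsq, ht.neg hK hu] at h1
    exact hu0 (hodd u (by grind))

/-- the regular case: all roots commute -/
theorem odd_reg [Nontrivial V]
    (hirr : ∀ A : AddSubgroup V, (∀ g ∈ K, ∀ x ∈ A, g • x ∈ A) → A = ⊥ ∨ A = ⊤)
    (hall : ∀ s t, IsRt V K s → IsRt V K t → s * t = t * s) : PrimeCase V K := by
  classical
  letI : Fintype Γ := Fintype.ofFinite Γ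
  have hex : ∀ r : Γ, ∃ u : V, IsRt V K r → u ∈ (U r : AddSubgroup V) ∧ u ≠ 0 := by
    intro r
    by_cases hr : IsRt V K r
    · obtain ⟨u, hu, hu0⟩ := U_exists_ne (V := V) hr.ne
      exact ⟨u, fun _ => ⟨hu, hu0⟩⟩
    · exact ⟨0, fun h => absurd h hr⟩
  choose u hu using hex
  let R := Finset.univ.filter (fun r : Γ => IsRt V K r)
  let z : V := ∑ r ∈ R, u r
  have hz : ∀ t, IsRt V K t → t • z ≠ z := by
    intro t ht h
    have htR : t ∈ R := by simp [R, ht]
    have e1 : z = u t + ∑ r ∈ R.erase t, u r := (Finset.add_sum_erase R u htR).symm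
    have e2 : t • (∑ r ∈ R.erase t, u r) = ∑ r ∈ R.erase t, u r := by
      rw [Finset.smul_sum]
      apply Finset.sum_congr rfl
      intro r hr
      have hr1 := Finset.mem_of_mem_erase hr
      have hr2 : IsRt V K r := by simpa [R] using hr1
      have hr3 : r ≠ t := Finset.ne_of_mem_erase hr
      exact comm_fix hK (Or.inr hodd) hr2 ht hr3 (hall _ _ ht hr2) (hu r hr2).1
    rw [e1, smul_add, e2, ht.neg hK (hu t ht).1] at h
    exact (hu t ht).2 (hodd _ (by grind))
  have hreg : ∀ g ∈ K, g • z = z → g = 1 := by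
    intro g hg hgz
    by_contra h1
    obtain ⟨r, hr, hgr⟩ := exists_root (V := V) hg h1
    exact hz r hr (hgr z hgz)
  have hexp := reg hK hreg
  have hcomm : ∀ g ∈ K, ∀ h ∈ K, g * h = h * g := by
    intro g hg h hh
    by_contra hnc
    exact sq_ne_of_noncomm (hexp g hg) (hexp h hh) hnc (hexp _ (K.mul_mem hg hh))
  have hs : ∀ h ∈ K, (∀ v : V, h • v = v) ∨ (∀ v : V, h • v = -v) := by
    intro h hh
    rcases hirr (W h) (fun g hg x hx => smul_mem_W_of_comm (hcomm g hg h hh) hx) with h1 | h1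
    · right
      intro v
      have h2 : h • v + v ∈ (W h : AddSubgroup V) := by
        show h • (h • v + v) = h • v + v
        rw [smul_add, ← mul_smul, hexp h hh, one_smul]
        abel
      rw [h1] at h2
      have h3 : h • v + v = 0 := by simpa using h2
      grind
    · left
      intro v
      have : v ∈ (W h : AddSubgroup V) := by rw [h1]; trivial
      exact this
  exact ⟨prime_of_sign hp hirr hs, hs⟩

/-- the odd dichotomy -/
theorem odd_main [Nontrivial V]
    (hirr : ∀ A : AddSubgroup V, (∀ g ∈ K, ∀ x ∈ A, g • x ∈ A) → A = ⊥ ∨ A = ⊤) :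
    PrimeCase V K ∨ ∃ q, DH V K q := by
  by_cases hall : ∀ s t, IsRt V K s → IsRt V K t → s * t = t * s
  · exact Or.inl (odd_reg hK hodd hp hirr hall)
  · push Not at hall
    obtain ⟨s, t, hs, ht, hst⟩ := hall
    exact Or.inr ⟨_, odd_DH hK hodd hp hirr hs ht hst⟩

end comps

end Cfsg.Agent.BinAff
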