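import Cfsg.Agent.Lib.BinH

/-! Binary linear groups in characteristic two. -/

set_option autoImplicit false

namespace Cfsg.Agent.BinAff

variable {V Γ : Type*} [AddCommGroup V] [Group Γ] [DistribMulAction Γ V]

section two
variable {K : Subgroup Γ} [Finite V] [Finite Γ] [FaithfulSMul Γ V]
  (hK : Bin V K) (hchar : ∀ v : V, v + v = 0)
include hK hchar

omit [Finite Γ] [FaithfulSMul Γ V] in
theorem c2 {c y e : V} {α : Γ} (hα : α ∈ K) (h1 : α • c = c) (h2 : α • y - y = e) (he : e ≠ 0)
    {g : Γ} (hg : g ∈ K) : g • c ≠ c + e := by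
  intro hgc
  obtain ⟨h, _, hh⟩ := kl hK e
  have e1 := hh y ⟨α, hα, by grind⟩
  have e2 := hh c ⟨g, hg, hgc⟩
  have e3 := hh (y + c) ⟨α, hα, by rw [smul_add, h1]; grind⟩
  rw [smul_add, e1, e2] at e3
  have := hchar e
  apply he
  grind

omit [Finite Γ] in
theorem no4 {h : Γ} (hh : h ∈ K) (h4 : h * h * (h * h) = 1) : h * h = 1 := by
  have hf : ∀ w : V, h • h • h • h • w = w := by
    intro w
    have := congrArg (fun x : Γ => x • w) h4
    simpa [mul_smul] using this
  have hz : h * h ∈ K := K.mul_mem hh hh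
  have key : ∀ w : V, h • h • h • w + h • h • w + h • w + w = 0 → h • h • w = w := by
    intro w hw
    by_contra hne
    have h1 : (h * h) • (h • w + w) = h • w + w := by
      rw [mul_smul, smul_add, smul_add]
      have e1 := hchar (h • h • h • w)
      have e2 := hchar (h • h • w)
      grind
    have h2 : (h * h) • w - w ≠ 0 := by
      rw [mul_smul]
      exact sub_ne_zero.mpr hne
    refine c2 hK hchar hz h1 rfl h2 hh ?_
    rw [smul_add, mul_smul]
    have e1 := hchar w
    grind
  apply FaithfulSMul.eq_of_smul_eq_smul (α := V)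
  intro w
  rw [one_smul, mul_smul]
  apply key
  have h1 := key (h • w + w) (by
    simp only [smul_add]
    rw [hf w]
    have e1 := hchar w
    have e2 := hchar (h • w)
    have e3 := hchar (h • h • w)
    have e4 := hchar (h • h • h • w)
    grind)
  simp only [smul_add] at h1
  have e1 := hchar (h • h • h • w)
  have e2 := hchar (h • h • w)
  have e3 := hchar (h • w)
  grind

omit [Finite Γ] in
theorem pow2 {x : Γ} (hx : x ∈ K) (a : ℕ) (h : x ^ 2 ^ a = 1) : x * x = 1 := by
  induction a with
  | zero =>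
    have : x = 1 := by simpa using h
    rw [this, one_mul]
  | succ a ih =>
    cases a with
    | zero =>
      rw [← pow_two]
      simpa using h
    | succ a =>
      apply ih
      have hy : x ^ 2 ^ a ∈ K := K.pow_mem hx _
      have h1 : x ^ 2 ^ a * x ^ 2 ^ a * (x ^ 2 ^ a * x ^ 2 ^ a) = 1 := by
        rw [← h]
        simp only [← pow_add]
        congr 1
        ring
      have h2 := no4 hK hchar hy h1
      rw [← h2]
      simp only [← pow_add]
      congr 1
      ring

theorem swap_inv {h : Γ} (hh : h ∈ K) (y : V) :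
    ∃ g ∈ K, g * g = 1 ∧ g • y = h • y ∧ g • (h • y) = y := by
  obtain ⟨g₀, hg₀, e1, e2⟩ := swap hK hh y
  have hn : orderOf g₀ ≠ 0 := (orderOf_pos g₀).ne'
  obtain ⟨k, m, hm, hkm⟩ := Nat.exists_eq_two_pow_mul_odd hn
  obtain ⟨j, rfl⟩ := hm
  have hev : ∀ i : ℕ, (g₀ ^ (2 * i)) • y = y ∧ (g₀ ^ (2 * i)) • (h • y) = h • y := by
    intro i
    induction i with
    | zero => simp
    | succ i ih =>
      have hp : g₀ ^ (2 * (i + 1)) = g₀ ^ (2 * i) * (g₀ * g₀) := by
        rw [show 2 * (i + 1) = 2 * i + 2 by ring, pow_add, pow_two]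
      constructor
      · rw [hp, mul_smul, mul_smul, e1, e2, ih.1]
      · rw [hp, mul_smul, mul_smul, e2, e1, ih.2]
  have hp : g₀ ^ (2 * j + 1) = g₀ ^ (2 * j) * g₀ := pow_succ _ _
  refine ⟨g₀ ^ (2 * j + 1), K.pow_mem hg₀ _, ?_, ?_, ?_⟩
  · refine pow2 hK hchar (K.pow_mem hg₀ _) k ?_
    rw [← pow_mul, show (2 * j + 1) * 2 ^ k = orderOf g₀ by rw [hkm]; ring, pow_orderOf_eq_one]
  · rw [hp, mul_smul, e1, (hev j).2]
  · rw [hp, mul_smul, e2, (hev j).1]

theorem no_same_orbit {s t : Γ} (hs : IsRt V K s) (ht : IsRt V K t) (hne : s ≠ t) (hc : s * t = t * s)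
    {u : V} (hu : u ∈ (U s : AddSubgroup V)) (hu0 : u ≠ 0) {g : Γ} (hg : g ∈ K)
    (hgu : g • u ∈ (U t : AddSubgroup V)) : False := by
  obtain ⟨k, hk, hk2, e1, e2⟩ := swap_inv hK hchar hg u
  have hgu0 : g • u ≠ 0 := fun h => hu0 (by simpa using congrArg (fun y => g⁻¹ • y) h)
  have h1 : k * s * k⁻¹ = t := R2 hK (hs.conj hk) ht hgu0 (by
    rw [← e1]; exact smul_mem_U_conj s k hu) hgu
  have hki : k⁻¹ = k := inv_eq_of_mul_eq_one_left hk2
  rw [hki] at h1
  have h2 : k * t * k = s := by
    rw [← h1]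
    calc k * (k * s * k) * k = (k * k) * s * (k * k) := by group
      _ = s := by rw [hk2]; group
  have h3 : (t * k) * (t * k) = t * s := by
    calc (t * k) * (t * k) = t * (k * t * k) := by group
      _ = t * s := by rw [h2]
  have h4 : (t * s) * (t * s) = 1 := by
    calc (t * s) * (t * s) = (t * t) * (s * s) := by
          calc (t * s) * (t * s) = t * (s * t) * s := by group
            _ = t * (t * s) * s := by rw [hc]
            _ = (t * t) * (s * s) := by group
      _ = 1 := by rw [ht.sq hK, hs.sq hK, one_mul]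
  have h5 := no4 hK hchar (K.mul_mem ht.mem hk) (by rw [h3, h4])
  rw [h3] at h5
  apply hne
  have h6 := ht.sq hK
  calc s = (t * t) * s := by rw [h6, one_mul]
    _ = t * (t * s) := by rw [mul_assoc]
    _ = t := by rw [h5, mul_one]

/-- noncommuting roots are conjugate -/
theorem conj_of_noncomm {s t : Γ} (hs : IsRt V K s) (ht : IsRt V K t) (hnc : s * t ≠ t * s) :
    ∃ g ∈ K, g * s * g⁻¹ = t := by
  have hs2 := hs.sq hK
  have ht2 := ht.sq hK
  have hsi : s⁻¹ = s := hs.inv hK
  have hti : t⁻¹ = t := ht.inv hK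
  set c := s * t with hc
  have hcK : c ∈ K := K.mul_mem hs.mem ht.mem
  have hci : c⁻¹ = t * s := by rw [hc, _root_.mul_inv_rev, hsi, hti]
  have hts : s * c = t := by rw [hc, ← mul_assoc, hs2, one_mul]
  have hpow : ∀ j : ℕ, s * c ^ j = (c ^ j)⁻¹ * s := by
    intro j
    have h1 : s * c * s⁻¹ = c⁻¹ := by
      rw [hsi, hts, hci]
    have h2 : s * c ^ j * s⁻¹ = (c⁻¹) ^ j := by
      rw [← h1, conj_pow]
    calc s * c ^ j = s * c ^ j * s⁻¹ * s := by group
      _ = (c ^ j)⁻¹ * s := by rw [h2, inv_pow]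
  have hconj : ∀ j : ℕ, c ^ j * s * (c ^ j)⁻¹ = c ^ (2 * j) * s := by
    intro j
    have h1 : s * (c ^ j)⁻¹ = c ^ j * s := by
      have h2 := hpow j
      calc s * (c ^ j)⁻¹ = s * (c ^ j)⁻¹ * (s * s) := by rw [hs2, mul_one]
        _ = s * ((c ^ j)⁻¹ * s) * s := by group
        _ = s * (s * c ^ j) * s := by rw [h2]
        _ = (s * s) * c ^ j * s := by group
        _ = c ^ j * s := by rw [hs2, one_mul]
    calc c ^ j * s * (c ^ j)⁻¹ = c ^ j * (s * (c ^ j)⁻¹) := by group
      _ = c ^ j * (c ^ j * s) := by rw [h1]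
      _ = c ^ (2 * j) * s := by rw [two_mul, pow_add, mul_assoc]
  have hn := pow_orderOf_eq_one c
  rcases Nat.even_or_odd' (orderOf c) with ⟨m, hm | hm⟩
  · -- even order
    exfalso
    have hmpos : 0 < m := by
      have := orderOf_pos c
      omega
    have hz1 : c ^ m ≠ 1 := by
      intro h
      have := orderOf_le_of_pow_eq_one hmpos h
      omega
    have hz2 : c ^ m * c ^ m = 1 := by
      rw [← pow_add, ← two_mul, ← hm, hn]
    rcases Nat.even_or_odd' m with ⟨k, hk | hk⟩
    · apply hz1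
      have h1 := no4 hK hchar (K.pow_mem hcK k) (by
        rw [← pow_add, ← pow_add, show k + k + (k + k) = 2 * m by omega, ← hm, hn])
      rw [hk, two_mul, pow_add, h1]
    · have hzi : (c ^ m)⁻¹ = c ^ m := inv_eq_of_mul_eq_one_left hz2
      have hzs : s * c ^ m = c ^ m * s := by
        rw [hpow m, hzi]
      have hρ := hs.conj (K.inv_mem (K.pow_mem hcK (k + 1)))
      have hρe : (c ^ (k + 1))⁻¹ * s * ((c ^ (k + 1))⁻¹)⁻¹ = t * c ^ m := by
        rw [inv_inv, mul_assoc, hpow (k + 1), ← hts, mul_assoc, ← pow_succ', hpow (m + 1),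
          ← mul_assoc]
        congr 1
        rw [← _root_.mul_inv_rev, ← pow_add]
        congr 2
        omega
      rw [hρe] at hρ
      have hne : t * c ^ m ≠ t := by
        intro h
        apply hz1
        have := mul_left_cancel (a := t) (b := c ^ m) (c := 1) (by rw [h, mul_one])
        exact this
      obtain ⟨u, hu, hu0⟩ := U_exists_ne (V := V) hs.ne
      have hfix : ∀ w ∈ (U s : AddSubgroup V), t • w = w := by
        intro w hw
        have hzw : c ^ m • w = w := by
          rcases sign_of_mem hK hs (K.pow_mem hcK m) hw (smul_mem_U_of_comm hzs.symm hw) with h | h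
          · exact h
          · rw [h]
            have := hchar w
            grind
        by_contra hne2
        have hx : t • w - w ≠ 0 := sub_ne_zero.mpr hne2
        apply hne
        refine R2 hK hρ ht hx ?_ (dm_mem_U t w)
        have : (t * c ^ m) • w = t • w := by rw [mul_smul, hzw]
        rw [← this]
        exact dm_mem_U _ w
      exact hu0 (noncomm_fix hK hs ht hnc hu (hfix u hu))
  · -- odd order
    refine ⟨c ^ m, K.pow_mem hcK m, ?_⟩
    rw [hconj m]
    have h1 : c ^ (2 * m) * c = 1 := by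
      rw [← pow_succ, ← hm, hn]
    have h2 : c ^ (2 * m) = c⁻¹ := eq_inv_of_mul_eq_one_left h1
    rw [h2, hci, mul_assoc, hs2, mul_one]

/-- any two distinct roots do not commute -/
theorem all_noncomm (hirr : ∀ A : AddSubgroup V, (∀ g ∈ K, ∀ x ∈ A, g • x ∈ A) → A = ⊥ ∨ A = ⊤)
    {s t : Γ} (hs : IsRt V K s) (ht : IsRt V K t) (hne : s ≠ t) : s * t ≠ t * s := by
  intro hc
  -- conjugates of `t` commute with `s`
  have h1 : ∀ g ∈ K, ∀ u ∈ (U t : AddSubgroup V), s • g • u = g • u := by
    intro g hg u hu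
    by_cases hu0 : u = 0
    · rw [hu0, smul_zero, smul_zero]
    have hgt := ht.conj hg
    have hu' := smul_mem_U_conj t g hu
    have hne' : g * t * g⁻¹ ≠ s := by
      intro h
      rw [h] at hu'
      exact no_same_orbit hK hchar ht hs hne.symm hc.symm hu hu0 hg hu'
    have hc' : s * (g * t * g⁻¹) = (g * t * g⁻¹) * s := by
      by_contra hnc
      obtain ⟨k, hk, hk'⟩ := conj_of_noncomm hK hchar hgt hs (Ne.symm hnc)
      refine no_same_orbit hK hchar ht hs hne.symm hc.symm hu hu0 (K.mul_mem hk hg) ?_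
      rw [mul_smul]
      have := smul_mem_U_conj _ k hu'
      rwa [hk'] at this
    exact comm_fix hK (Or.inl hchar) hgt hs hne' hc' hu'
  let A : AddSubgroup V :=
    { carrier := {v | ∀ g ∈ K, s • g • v = g • v}
      add_mem' := by
        intro a b ha hb g hg
        rw [smul_add, smul_add, ha g hg, hb g hg]
      zero_mem' := by
        intro g _
        rw [smul_zero, smul_zero]
      neg_mem' := by
        intro a ha g hg
        rw [smul_neg, smul_neg, ha g hg] }
  obtain ⟨u, hu, hu0⟩ := U_exists_ne (V := V) ht.ne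
  have hA : u ∈ A := fun g hg => h1 g hg u hu
  rcases hirr A (by
    intro h hh x hx g hg
    have := hx (g * h) (K.mul_mem hg hh)
    simpa [mul_smul] using this) with h2 | h2
  · rw [h2] at hA
    exact hu0 (by simpa using hA)
  · obtain ⟨z, hz⟩ := exists_moved (V := V) hs.ne
    have hzA : z ∈ A := by rw [h2]; trivial
    have := hzA 1 K.one_mem
    simp only [one_smul] at this
    exact hz this

end two

end Cfsg.Agent.BinAff
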