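import Cfsg.Agent.Lib.BinI

/-! Binary linear groups in characteristic two: lines and the final structure. -/

set_option autoImplicit false

namespace Cfsg.Agent.BinAff

variable {V Γ : Type*} [AddCommGroup V] [Group Γ] [DistribMulAction Γ V]

section two
variable {K : Subgroup Γ} [Finite V] [Finite Γ] [FaithfulSMul Γ V]
  (hK : Bin V K) (hchar : ∀ v : V, v + v = 0)
  (hirr : ∀ A : AddSubgroup V, (∀ g ∈ K, ∀ x ∈ A, g • x ∈ A) → A = ⊥ ∨ A = ⊤)
include hK hchar hirr

theorem fx_two {t g : Γ} (ht : IsRt V K t) (hg : g ∈ K) (h1 : g ≠ 1) (hle : ∀ v : V, t • v = v → g • v = v) :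
    g = t := by
  have hgr : IsRt V K g := by
    refine ⟨hg, h1, fun g' hg' h1' hle' v hv => ?_⟩
    exact hle v (ht.max g' hg' h1' (fun w hw => hle' w (hle w hw)) v hv)
  have hgL : g ∈ Fx K ((W t : AddSubgroup V) : Set V) := ⟨hg, fun v hv => hle v hv⟩
  have htL : t ∈ Fx K ((W t : AddSubgroup V) : Set V) := ⟨ht.mem, fun v hv => hv⟩
  have hexp := ht.exp hK
  by_contra hne
  exact sq_ne_of_noncomm (hexp g hgL) (hexp t htL) (all_noncomm hK hchar hirr hgr ht hne)
    (hexp _ (Subgroup.mul_mem _ hgL htL))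

theorem card_U_all {r s : Γ} (hr : IsRt V K r) (hs : IsRt V K s) :
    Nat.card (U r : AddSubgroup V) = Nat.card (U s : AddSubgroup V) := by
  by_cases h : r = s
  · rw [h]
  · exact card_U_eq hK hr hs (all_noncomm hK hchar hirr hr hs h)

omit hirr in
theorem U_fix {r : Γ} (hr : IsRt V K r) {u : V} (hu : u ∈ (U r : AddSubgroup V)) : r • u = u := by
  rw [hr.neg hK hu]
  have := hchar u
  grind

section pair
variable {a b : Γ} (ha : IsRt V K a) (hb : IsRt V K b) (hne : a ≠ b)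
include ha hb hne

theorem two_disj {x : V} (hx : x ∈ (Es a b : AddSubgroup V)) (h1 : a • x = x) (h2 : b • x = x) :
    x = 0 := by
  have hnc := all_noncomm hK hchar hirr ha hb hne
  obtain ⟨α, hα, β, hβ, rfl⟩ := mem_Es.mp hx
  rw [smul_add, U_fix hK hchar ha hα] at h1
  rw [smul_add, U_fix hK hchar hb hβ] at h2
  have e1 : a • β = β := by grind
  have e2 : b • α = α := by grind
  rw [noncomm_fix hK hb ha (Ne.symm hnc) hβ e1, noncomm_fix hK ha hb hnc hα e2, add_zero]

theorem two_span (v : V) : ∃ x ∈ (Xs a b : AddSubgroup V), ∃ e ∈ (Es a b : AddSubgroup V), v = x + e := by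
  have hnc := all_noncomm hK hchar hirr ha hb hne
  obtain ⟨β, hβ, e1⟩ := dm_surj hK hb ha (Ne.symm hnc) (dm_mem_U a v)
  obtain ⟨α, hα, e2⟩ := dm_surj hK ha hb hnc (dm_mem_U b v)
  refine ⟨v - (α + β), ⟨?_, ?_⟩, α + β, AddSubgroup.add_mem_sup hα hβ, by abel⟩
  · show a • (v - (α + β)) = v - (α + β)
    rw [smul_sub, smul_add, U_fix hK hchar ha hα]
    grind
  · show b • (v - (α + β)) = v - (α + β)
    rw [smul_sub, smul_add, U_fix hK hchar hb hβ]
    grind

theorem card_Xs : Nat.card (Xs a b : AddSubgroup V) *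
    (Nat.card (U a : AddSubgroup V) * Nat.card (U a : AddSubgroup V)) = Nat.card V := by
  have h1 : (Xs a b : AddSubgroup V) ⊔ Es a b = ⊤ := by
    rw [eq_top_iff]
    intro v _
    obtain ⟨x, hx, e, he, rfl⟩ := two_span hK hchar hirr ha hb hne v
    exact AddSubgroup.add_mem_sup hx he
  have h2 := card_sup_eq (Xs a b : AddSubgroup V) (Es a b) (fun x h3 h4 =>
    two_disj hK hchar hirr ha hb hne h4 h3.1 h3.2)
  rw [h1, AddSubgroup.card_top, card_Es hK ha hb hne, card_U_all hK hchar hirr hb ha] at h2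
  exact h2.symm

theorem W_prod : (W (a * b) : AddSubgroup V) = Xs a b := by
  ext v
  constructor
  · intro h
    exact fix_prod hK ha hb hne h
  · rintro ⟨h1, h2⟩
    show (a * b) • v = v
    rw [mul_smul, show b • v = v from h2, show a • v = v from h1]

theorem two_range {e : V} (he : e ∈ (Es a b : AddSubgroup V)) : ∃ w, (a * b) • w - w = e := by
  have h1 : (U (a * b) : AddSubgroup V) ≤ Es a b := by
    rintro _ ⟨w, rfl⟩
    exact dm_prod_mem a b w (fun u _ => dm_mem_U a u)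
  have h2 : (U (a * b) : AddSubgroup V) = Es a b := by
    apply eq_of_le_of_card_le h1
    have h3 := card_W_mul_U (V := V) (a * b)
    rw [W_prod hK hchar hirr ha hb hne, ← card_Xs hK hchar hirr ha hb hne] at h3
    rw [card_Es hK ha hb hne, card_U_all hK hchar hirr hb ha]
    exact (Nat.eq_of_mul_eq_mul_left Nat.card_pos h3).ge
  rw [← h2] at he
  exact he

omit hchar hirr hK hne in
theorem two_E_left {e : V} (he : e ∈ (Es a b : AddSubgroup V)) : a • e ∈ (Es a b : AddSubgroup V) := by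
  have : a • e = (a • e - e) + e := by abel
  rw [this]
  exact AddSubgroup.add_mem _ (U_le_Es_left a b (dm_mem_U a e)) he

omit hchar hirr hK hne in
theorem two_E_right {e : V} (he : e ∈ (Es a b : AddSubgroup V)) : b • e ∈ (Es a b : AddSubgroup V) := by
  have : b • e = (b • e - e) + e := by abel
  rw [this]
  exact AddSubgroup.add_mem _ (U_le_Es_right a b (dm_mem_U b e)) he

section rho
variable {ρ : Γ} (hρ : RL V K a b ρ)
include hρ

theorem two_W {v : V} (hv : ρ • v = v) : ∃ x ∈ (Xs a b : AddSubgroup V), ∃ u ∈ (U ρ : AddSubgroup V),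
    v = x + u := by
  obtain ⟨a', ha', hne', hfix⟩ : ∃ a', IsRt V K a' ∧ ρ ≠ a' ∧ ∀ w : V, a • w = w → b • w = w → a' • w = w := by
    by_cases h : ρ = a
    · exact ⟨b, hb, by rw [h]; exact hne, fun _ _ h2 => h2⟩
    · exact ⟨a, ha, h, fun _ h1 _ => h1⟩
  have hXs : (Xs a b : AddSubgroup V) = Xs ρ a' := by
    apply eq_of_le_of_card_le
    · intro w hw
      exact ⟨hρ.2 w hw.1 hw.2, hfix w hw.1 hw.2⟩
    · have h1 := card_Xs hK hchar hirr hρ.1 ha' hne'
      have h2 := card_Xs hK hchar hirr ha hb hne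
      rw [card_U_all hK hchar hirr hρ.1 ha, ← h2] at h1
      exact (Nat.eq_of_mul_eq_mul_right (Nat.mul_pos Nat.card_pos Nat.card_pos) h1).le
  have hnc := all_noncomm hK hchar hirr hρ.1 ha' hne'
  obtain ⟨u, hu, e1⟩ := dm_surj hK hρ.1 ha' hnc (dm_mem_U a' v)
  refine ⟨v - u, ?_, u, hu, by abel⟩
  rw [hXs]
  refine ⟨?_, ?_⟩
  · show ρ • (v - u) = v - u
    rw [smul_sub, hv, U_fix hK hchar hρ.1 hu]
  · show a' • (v - u) = v - u
    rw [smul_sub]
    grind

theorem two_stab {z : V} (hz : z ∈ (U ρ : AddSubgroup V)) (hz0 : z ≠ 0) :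
    ∀ g ∈ Fx K ((Xs a b : AddSubgroup V) : Set V), g • z = z → g = 1 ∨ g = ρ := by
  intro g hg hgz
  by_cases h1 : g = 1
  · exact Or.inl h1
  right
  have hc := comm_of_fix hK hρ.1 hg.1 hz hz0 hgz
  have hfixU : ∀ u ∈ (U ρ : AddSubgroup V), g • u = u := by
    intro u hu
    rcases sign_of_mem hK hρ.1 hg.1 hu (smul_mem_U_of_comm hc hu) with h | h
    · exact h
    · rw [h]
      have := hchar u
      grind
  refine fx_two hK hchar hirr hρ.1 hg.1 h1 ?_
  intro v hv
  obtain ⟨x, hx, u, hu, rfl⟩ := two_W hK hchar hirr ha hb hne hρ hv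
  rw [smul_add, hg.2 x hx, hfixU u hu]

theorem two_inv : ρ * (a * b) * ρ = (a * b)⁻¹ := by
  obtain ⟨z, hz, hz0⟩ := U_exists_ne (V := V) hρ.1.ne
  have hnc := all_noncomm hK hchar hirr ha hb hne
  have hmem : a * b ∈ Fx K ((Xs a b : AddSubgroup V) : Set V) :=
    Subgroup.mul_mem _ (a_mem_B hK ha hb hnc) (b_mem_B hK ha hb hnc)
  rcases rule (hK.fx _) (hρ.1.sq hK) (two_stab hK hchar hirr ha hb hne hρ hz hz0) (a * b) hmem with h | h | h
  · exact absurd h (sq_ne_of_noncomm (ha.sq hK) (hb.sq hK) hnc)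
  · exfalso
    have h1 := no4 hK hchar hmem.1 (by rw [h]; exact hρ.1.sq hK)
    exact sq_ne_of_noncomm (ha.sq hK) (hb.sq hK) hnc h1
  · exact h

theorem two_Ule : (U ρ : AddSubgroup V) ≤ Es a b := by
  have h1 := two_inv hK hchar hirr ha hb hne hρ
  have hφ2 := hρ.1.sq hK
  set c := a * b with hc
  have h2 : ρ * c = c⁻¹ * ρ := by
    calc ρ * c = ρ * c * ρ * ρ := by rw [mul_assoc (ρ * c), hφ2, mul_one]
      _ = c⁻¹ * ρ := by rw [h1]
  have hci : c⁻¹ = b * a := by
    rw [hc, _root_.mul_inv_rev, ha.inv hK, hb.inv hK]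
  have hinv : ∀ e ∈ (Es a b : AddSubgroup V), ρ • e ∈ (Es a b : AddSubgroup V) := by
    intro e he
    obtain ⟨w, rfl⟩ := two_range hK hchar hirr ha hb hne he
    have h3 : ρ • (c • w - w) = -(c⁻¹ • (c • (ρ • w) - ρ • w)) := by
      rw [smul_sub, ← mul_smul, h2, mul_smul, smul_sub, inv_smul_smul]
      abel
    rw [h3]
    apply AddSubgroup.neg_mem
    rw [hci, mul_smul]
    apply two_E_right ha hb
    apply two_E_left ha hb
    exact dm_prod_mem a b _ (fun u _ => dm_mem_U a u)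
  rintro _ ⟨y, rfl⟩
  obtain ⟨x, hx, e, he, rfl⟩ := two_span hK hchar hirr ha hb hne y
  have h4 : ρ • (x + e) - (x + e) = ρ • e - e := by
    rw [smul_add, hρ.2 x hx.1 hx.2]; abel
  rw [h4]
  exact AddSubgroup.sub_mem _ (hinv e he) he

end rho

theorem two_atom {y : V} (hy : y ∈ (Es a b : AddSubgroup V)) (hy0 : y ≠ 0) :
    ∃ ρ, IsRt V K ρ ∧ y ∈ (U ρ : AddSubgroup V) := by
  have hnc := all_noncomm hK hchar hirr ha hb hne
  have hex : ∃ g ∈ Fx K ((Xs a b : AddSubgroup V) : Set V), g • y = y ∧ g ≠ 1 := by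
    by_contra hc
    push Not at hc
    have h1 := reg (hK.fx _) (z := y) hc (a * b)
      (Subgroup.mul_mem _ (a_mem_B hK ha hb hnc) (b_mem_B hK ha hb hnc))
    exact sq_ne_of_noncomm (ha.sq hK) (hb.sq hK) hnc h1
  obtain ⟨g, hg, hgy, hg1⟩ := hex
  obtain ⟨ρ, hρ, hgρ⟩ := exists_root (V := V) hg.1 hg1
  have hρL : RL V K a b ρ := ⟨hρ, fun v h1 h2 => hgρ v (hg.2 v ⟨h1, h2⟩)⟩
  obtain ⟨x, hx, u, hu, rfl⟩ := two_W hK hchar hirr ha hb hne hρL (hgρ y hgy)
  have huE := two_Ule hK hchar hirr ha hb hne hρL hu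
  have hxE : x ∈ (Es a b : AddSubgroup V) := by
    have : x = x + u - u := by abel
    rw [this]
    exact AddSubgroup.sub_mem _ hy huE
  have hx0 := two_disj hK hchar hirr ha hb hne hxE hx.1 hx.2
  refine ⟨ρ, hρ, ?_⟩
  rw [hx0, zero_add]
  exact hu

end pair

theorem atoms_all {t : Γ} (ht : IsRt V K t) (x : V) (hx : x ≠ 0) :
    ∃ r, IsRt V K r ∧ x ∈ (U r : AddSubgroup V) := by
  let A : AddSubgroup V :=
    { carrier := {x | x = 0 ∨ ∃ r, IsRt V K r ∧ x ∈ (U r : AddSubgroup V)}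
      add_mem' := by
        intro a b ha hb
        rcases ha with rfl | ⟨r, hr, ha⟩
        · rw [zero_add]; exact hb
        rcases hb with rfl | ⟨s, hs, hb⟩
        · rw [add_zero]; exact Or.inr ⟨r, hr, ha⟩
        by_cases hrs : r = s
        · subst hrs
          exact Or.inr ⟨r, hr, AddSubgroup.add_mem _ ha hb⟩
        by_cases h0 : a + b = 0
        · exact Or.inl h0
        · exact Or.inr (two_atom hK hchar hirr hr hs hrs (AddSubgroup.add_mem_sup ha hb) h0)
      zero_mem' := Or.inl rfl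
      neg_mem' := by
        intro a ha
        rcases ha with rfl | ⟨r, hr, ha⟩
        · left; simp
        · exact Or.inr ⟨r, hr, AddSubgroup.neg_mem _ ha⟩ }
  obtain ⟨u, hu, hu0⟩ := U_exists_ne (V := V) ht.ne
  have hA : u ∈ A := Or.inr ⟨t, ht, hu⟩
  rcases hirr A (by
    intro g hg a ha
    rcases ha with rfl | ⟨r, hr, ha⟩
    · left; simp
    · exact Or.inr ⟨g * r * g⁻¹, hr.conj hg, smul_mem_U_conj r g ha⟩) with h | h
  · rw [h] at hA
    exact absurd (by simpa using hA) hu0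
  · have : x ∈ A := by rw [h]; trivial
    rcases this with h0 | h1
    · exact absurd h0 hx
    · exact h1

theorem W_le_U {t : Γ} (ht : IsRt V K t) : (W t : AddSubgroup V) ≤ U t := by
  intro x hx
  by_cases h0 : x = 0
  · rw [h0]; exact AddSubgroup.zero_mem _
  obtain ⟨s, hs, hxs⟩ := atoms_all hK hchar hirr ht x h0
  have h1 : t * s = s * t := comm_of_fix hK hs ht.mem hxs h0 hx
  by_cases h2 : s = t
  · rw [← h2]; exact hxs
  · exact absurd h1.symm (all_noncomm hK hchar hirr hs ht h2)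

theorem two_DH {t : Γ} (ht : IsRt V K t) : DH V K (Nat.card (U t : AddSubgroup V)) := by
  have hq : 1 < Nat.card (U t : AddSubgroup V) := by
    obtain ⟨u, hu, hu0⟩ := U_exists_ne (V := V) ht.ne
    exact one_lt_card_of_ne _ hu hu0
  have hWU : ∀ {r : Γ}, IsRt V K r → (W r : AddSubgroup V) = U r := fun hr =>
    le_antisymm (W_le_U hK hchar hirr hr) (fun u hu => U_fix hK hchar hr hu)
  refine ⟨hq, ?_, ?_, ?_, ?_⟩
  · rw [← card_W_mul_U (V := V) t, hWU ht]
  · intro z hz0
    obtain ⟨r, hr, hzr⟩ := atoms_all hK hchar hirr ht z hz0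
    refine ⟨r, hr, U_fix hK hchar hr hzr, ?_⟩
    intro g hg hgz
    by_cases h1 : g = 1
    · exact Or.inl h1
    right
    have hc := comm_of_fix hK hr hg hzr hz0 hgz
    refine fx_two hK hchar hirr hr hg h1 ?_
    intro v hv
    have hvU : v ∈ (U r : AddSubgroup V) := by
      rw [← hWU hr]; exact hv
    rcases sign_of_mem hK hr hg hvU (smul_mem_U_of_comm hc hvU) with h | h
    · exact h
    · rw [h]
      have := hchar v
      grind
  · intro r hr
    rw [hWU hr]
    exact card_U_all hK hchar hirr hr ht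
  · intro r hr h hh hsq
    have h1 := no4 hK hchar hh (by rw [hsq]; exact hr.sq hK)
    rw [hsq] at h1
    exact hr.ne h1

theorem two_main [Nontrivial V] : PrimeCase V K ∨ ∃ q, DH V K q := by
  by_cases hex : ∃ t, IsRt V K t
  · obtain ⟨t, ht⟩ := hex
    exact Or.inr ⟨_, two_DH hK hchar hirr ht⟩
  · left
    have h1 : ∀ g ∈ K, g = 1 := by
      intro g hg
      by_contra h1
      obtain ⟨r, hr, _⟩ := exists_root (V := V) hg h1
      exact hex ⟨r, hr⟩
    have hs : ∀ h ∈ K, (∀ v : V, h • v = v) ∨ (∀ v : V, h • v = -v) := by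
      intro h hh
      left
      intro v
      rw [h1 h hh, one_smul]
    haveI : Fact (Nat.Prime 2) := ⟨Nat.prime_two⟩
    exact ⟨prime_of_sign (p := 2) (fun v => by rw [two_nsmul]; exact hchar v) hirr hs, hs⟩

end two

end Cfsg.Agent.BinAff
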