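import Cfsg.Agent.Lib.BinJ

/-! Binary linear groups: the dihedral structure. -/

set_option autoImplicit false

namespace Cfsg.Agent.BinAff

variable {V Γ : Type*} [AddCommGroup V] [Group Γ] [DistribMulAction Γ V]

section dih
variable {K : Subgroup Γ} [Finite V] [FaithfulSMul Γ V]
  (hK : Bin V K) {q : ℕ} (D : DH V K q)
include hK D

theorem dh_stab_root {t : Γ} (ht : IsRt V K t) {z : V} (hz0 : z ≠ 0) (htz : t • z = z) :
    ∀ g ∈ K, g • z = z → g = 1 ∨ g = t := by
  obtain ⟨φ, _, _, hφ⟩ := D.stab z hz0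
  have h1 : t = φ := by
    rcases hφ t ht.mem htz with h | h
    · exact absurd h ht.ne
    · exact h
  rw [h1]
  exact hφ

theorem dh_root_of_fix {g : Γ} (hg : g ∈ K) (h1 : g ≠ 1) {z : V} (hz0 : z ≠ 0) (hgz : g • z = z) :
    IsRt V K g := by
  obtain ⟨φ, hφ, _, hφ'⟩ := D.stab z hz0
  rcases hφ' g hg hgz with h | h
  · exact absurd h h1
  · rw [h]; exact hφ

theorem dh_W_ne {t : Γ} (ht : IsRt V K t) : ∃ z : V, z ≠ 0 ∧ t • z = z := by
  obtain ⟨z, hz, hz0⟩ := exists_ne_of_one_lt (W t : AddSubgroup V) (by rw [D.cardW t ht]; exact D.qgt)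
  exact ⟨z, hz0, hz⟩

theorem dh_prod_fpf {s t : Γ} (hs : IsRt V K s) (ht : IsRt V K t) (hne : s ≠ t) {v : V}
    (h : (t * s) • v = v) : v = 0 := by
  obtain ⟨h1, h2⟩ := fix_prod hK ht hs hne.symm h
  by_contra h0
  rcases dh_stab_root hK D ht h0 h1 s hs.mem h2 with h3 | h3
  · exact hs.ne h3
  · exact hne h3

theorem dh_rule {t : Γ} (ht : IsRt V K t) {h : Γ} (hh : h ∈ K) : h * h = 1 ∨ t * h * t = h⁻¹ := by
  obtain ⟨z, hz0, hz⟩ := dh_W_ne hK D ht
  rcases rule hK (ht.sq hK) (dh_stab_root hK D ht hz0 hz) h hh with h1 | h1 | h1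
  · exact Or.inl h1
  · exact absurd h1 (D.nosq t ht h hh)
  · exact Or.inr h1

theorem dh_fpf_neg {h : Γ} (hh2 : h * h = 1) (hf : ∀ v : V, h • v = v → v = 0) (v : V) : h • v = -v := by
  have h1 : h • (h • v + v) = h • v + v := by
    rw [smul_add, ← mul_smul, hh2, one_smul]
    abel
  have := hf _ h1
  grind

theorem dh_fpf_root {t : Γ} (ht : IsRt V K t) {h : Γ} (hh : h ∈ K)
    (hf : ∀ v : V, h • v = v → v = 0) (hne : ∃ v : V, v ≠ 0) : IsRt V K (t * h) := by
  have ht2 := ht.sq hK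
  have hsq : (t * h) * (t * h) = 1 := by
    rcases dh_rule hK D ht hh with h1 | h1
    · apply FaithfulSMul.eq_of_smul_eq_smul (α := V)
      intro v
      have e : ∀ w : V, h • w = -w := dh_fpf_neg hK D h1 hf
      simp only [mul_smul, e, smul_neg, neg_neg, one_smul]
      exact ht.smul_smul hK v
    · calc (t * h) * (t * h) = (t * h * t) * h := by group
        _ = 1 := by rw [h1]; group
  have h1 : t * h ≠ 1 := by
    intro h2
    have h3 : h = t := by
      calc h = (t * t) * h := by rw [ht2, one_mul]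
        _ = t * (t * h) := by rw [mul_assoc]
        _ = t := by rw [h2, mul_one]
    rw [h3] at hf
    obtain ⟨z, hz0, hz⟩ := dh_W_ne hK D ht
    exact hz0 (hf z hz)
  have hmem : t * h ∈ K := K.mul_mem ht.mem hh
  by_cases hfix : ∀ v : V, (t * h) • v = v → v = 0
  · exfalso
    have e := dh_fpf_neg hK D hsq hfix
    obtain ⟨u, hu, hu0⟩ := U_exists_ne (V := V) ht.ne
    have e1 : h • u = u := by
      have e2 := e u
      rw [mul_smul] at e2
      have e3 : h • u = t • t • h • u := (ht.smul_smul hK _).symm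
      rw [e2, smul_neg, ht.neg hK hu, neg_neg] at e3
      exact e3
    exact hu0 (hf u e1)
  · push Not at hfix
    obtain ⟨z, hz, hz0⟩ := hfix
    exact dh_root_of_fix hK D hmem h1 hz0 hz

/-- the rotation subgroup -/
theorem dh_M : ∃ M : Subgroup Γ, ∀ h, h ∈ M ↔ h ∈ K ∧ (h = 1 ∨ ∀ v : V, h • v = v → v = 0) := by
  have hq := D.qgt
  have hne : ∃ v : V, v ≠ 0 := by
    by_contra hc
    push Not at hc
    haveI : Subsingleton V := ⟨fun a b => by rw [hc a, hc b]⟩
    have h1 := D.cardV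
    rw [Nat.card_of_subsingleton (0 : V)] at h1
    nlinarith
  -- product of two roots lies in the set
  have hprod : ∀ s t : Γ, IsRt V K s → IsRt V K t → s * t ∈ K ∧ (s * t = 1 ∨ ∀ v : V, (s * t) • v = v → v = 0) := by
    intro s t hs ht
    refine ⟨K.mul_mem hs.mem ht.mem, ?_⟩
    by_cases h : t = s
    · rw [h]; exact Or.inl (hs.sq hK)
    · exact Or.inr (fun v hv => dh_prod_fpf hK D ht hs h hv)
  -- every element of `K` is a root or in the set
  have hroot : ∀ {h : Γ}, h ∈ K → h ≠ 1 → ¬ (∀ v : V, h • v = v → v = 0) → IsRt V K h := by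
    intro h hh h1 hf
    push Not at hf
    obtain ⟨z, hz, hz0⟩ := hf
    exact dh_root_of_fix hK D hh h1 hz0 hz
  have hsplit : ∀ (t : Γ), IsRt V K t → ∀ h, h ∈ K → (h = 1 ∨ ∀ v : V, h • v = v → v = 0) → IsRt V K (t * h) := by
    intro t ht h hh hf
    rcases hf with rfl | hf
    · rwa [mul_one]
    · exact dh_fpf_root hK D ht hh hf hne
  by_cases hex : ∃ t, IsRt V K t
  · obtain ⟨t, ht⟩ := hex
    refine ⟨{ carrier := {h | h ∈ K ∧ (h = 1 ∨ ∀ v : V, h • v = v → v = 0)}
              one_mem' := ⟨K.one_mem, Or.inl rfl⟩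
              inv_mem' := ?_
              mul_mem' := ?_ }, fun h => Iff.rfl⟩
    · rintro a b ⟨ha, hfa⟩ ⟨hb, hfb⟩
      -- write `a = s t`, `b = t s'`
      have hai : a⁻¹ ∈ K ∧ (a⁻¹ = 1 ∨ ∀ v : V, a⁻¹ • v = v → v = 0) := by
        refine ⟨K.inv_mem ha, ?_⟩
        rcases hfa with rfl | hf
        · left; simp
        · right
          intro v hv
          apply hf
          rw [inv_smul_eq_iff] at hv
          exact hv.symm
      have hs := hsplit t ht a⁻¹ hai.1 hai.2
      have hs' := hsplit t ht b hb hfb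
      have e : a * b = (t * a⁻¹) * (t * b) := by
        have h1 : (t * a⁻¹)⁻¹ = a * t := by rw [_root_.mul_inv_rev, inv_inv, ht.inv hK]
        have h2 := hs.inv hK
        rw [h1] at h2
        rw [← h2]
        calc a * b = a * ((t * t) * b) := by rw [ht.sq hK, one_mul]
          _ = a * t * (t * b) := by group
      rw [e]
      exact hprod _ _ hs hs'
    · rintro h ⟨hh, hf⟩
      refine ⟨K.inv_mem hh, ?_⟩
      rcases hf with rfl | hf
      · left; simp
      · right
        intro v hv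
        apply hf
        rw [inv_smul_eq_iff] at hv
        exact hv.symm
  · refine ⟨⊥, fun h => ⟨?_, ?_⟩⟩
    · intro hh
      rw [Subgroup.mem_bot] at hh
      rw [hh]
      exact ⟨K.one_mem, Or.inl rfl⟩
    · rintro ⟨hh, hf⟩
      rw [Subgroup.mem_bot]
      by_contra h1
      rcases hf with hf | hf
      · exact h1 hf
      · obtain ⟨t, ht⟩ : ∃ t, IsRt V K t := by
          obtain ⟨r, hr, _⟩ := exists_root (V := V) hh h1
          exact ⟨r, hr⟩
        exact hex ⟨t, ht⟩

/-- number of roots -/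
theorem dh_card_R [Finite Γ] {t : Γ} (ht : IsRt V K t) : Nat.card {r : Γ // IsRt V K r} = q + 1 := by
  classical
  letI : Fintype V := Fintype.ofFinite V
  letI : Fintype Γ := Fintype.ofFinite Γ
  have hq := D.qgt
  let R := Finset.univ.filter (fun r : Γ => IsRt V K r)
  have h1 : (Finset.univ.filter (fun v : V => v ≠ 0)) =
      R.biUnion (fun r => Finset.univ.filter (fun v : V => v ∈ (W r : AddSubgroup V) ∧ v ≠ 0)) := by
    ext v
    simp only [Finset.mem_filter, Finset.mem_univ, true_and, Finset.mem_biUnion, R]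
    constructor
    · intro hv
      obtain ⟨φ, hφ, hφv, _⟩ := D.stab v hv
      exact ⟨φ, hφ, hφv, hv⟩
    · rintro ⟨_, _, _, hv⟩
      exact hv
  have h2 : ((Finset.univ.filter (fun v : V => v ≠ 0))).card = q * q - 1 := by
    have h3 : (Finset.univ.filter (fun v : V => v ≠ 0)) =
        Finset.univ.filter (fun v : V => v ∈ (⊤ : AddSubgroup V) ∧ v ≠ 0) := by
      ext v
      simp
    rw [h3, card_filter_ne, AddSubgroup.card_top, D.cardV]
  rw [h1, Finset.card_biUnion] at h2
  · have h3 : ∀ r ∈ R, (Finset.univ.filter (fun v : V => v ∈ (W r : AddSubgroup V) ∧ v ≠ 0)).card = q - 1 := by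
      intro r hr
      rw [card_filter_ne, D.cardW r (by simpa [R] using hr)]
    rw [Finset.sum_congr rfl h3, Finset.sum_const, smul_eq_mul] at h2
    have h4 : q * q - 1 = (q + 1) * (q - 1) := by
      obtain ⟨k, rfl⟩ : ∃ k, q = k + 2 := ⟨q - 2, by omega⟩
      simp only [show k + 2 - 1 = k + 1 by omega]
      have : (k + 2) * (k + 2) = (k + 2 + 1) * (k + 1) + 1 := by ring
      rw [this]
      omega
    rw [h4] at h2
    have h5 := Nat.eq_of_mul_eq_mul_right (by omega) h2
    rw [Nat.card_eq_fintype_card, Fintype.card_subtype]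
    exact h5
  · intro r hr s hs hne
    simp only [Finset.coe_filter, Finset.mem_univ, true_and, Set.mem_setOf_eq, R] at hr hs
    simp only [Function.onFun]
    rw [Finset.disjoint_left]
    intro v hv hv'
    simp only [Finset.mem_filter, Finset.mem_univ, true_and] at hv hv'
    rcases dh_stab_root hK D hr hv.2 hv.1 s hs.mem hv'.1 with h | h
    · exact hs.ne h
    · exact hne h.symm

/-- the structure theorem -/
theorem dh_struct [Finite Γ] : ∃ (M : Subgroup Γ) (t : Γ), M ≤ K ∧ t ∈ K ∧ t * t = 1 ∧ t ∉ M ∧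
    (∀ m ∈ M, ∀ m' ∈ M, m * m' = m' * m) ∧ Nat.card M = q + 1 ∧
    (∀ m ∈ M, ∀ v : V, m • v = v → m = 1 ∨ v = 0) ∧ (∀ m ∈ M, t * m * t = m⁻¹) ∧
    (∀ h ∈ K, h ∈ M ∨ ∃ m ∈ M, h = t * m) := by
  obtain ⟨M, hM⟩ := dh_M hK D
  have hq := D.qgt
  have hne : ∃ v : V, v ≠ 0 := by
    by_contra hc
    push Not at hc
    haveI : Subsingleton V := ⟨fun a b => by rw [hc a, hc b]⟩
    have h1 := D.cardV
    rw [Nat.card_of_subsingleton (0 : V)] at h1
    nlinarith
  obtain ⟨v₀, hv₀⟩ := hne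
  obtain ⟨φ, hφ, _, _⟩ := D.stab v₀ hv₀
  have ht : IsRt V K φ := hφ
  have hsplit : ∀ h ∈ M, IsRt V K (φ * h) := by
    intro h hh
    obtain ⟨hhK, hf⟩ := (hM h).mp hh
    rcases hf with rfl | hf
    · rwa [mul_one]
    · exact dh_fpf_root hK D ht hhK hf ⟨v₀, hv₀⟩
  have hprod : ∀ s, IsRt V K s → φ * s ∈ M := by
    intro s hs
    refine (hM _).mpr ⟨K.mul_mem ht.mem hs.mem, ?_⟩
    by_cases h : s = φ
    · rw [h]; exact Or.inl (ht.sq hK)
    · exact Or.inr (fun v hv => dh_prod_fpf hK D hs ht h hv)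
  have ht2 := ht.sq hK
  have hinv : ∀ m ∈ M, φ * m * φ = m⁻¹ := by
    intro m hm
    have hs := hsplit m hm
    have h1 := hs.sq hK
    calc φ * m * φ = (φ * m * φ * (m * m⁻¹)) := by group
      _ = ((φ * m) * (φ * m)) * m⁻¹ := by group
      _ = m⁻¹ := by rw [h1, one_mul]
  refine ⟨M, φ, fun h hh => ((hM h).mp hh).1, ht.mem, ht2, ?_, ?_, ?_, ?_, hinv, ?_⟩
  · intro hφM
    rcases ((hM φ).mp hφM).2 with h | h
    · exact ht.ne h
    · obtain ⟨z, hz0, hz⟩ := dh_W_ne hK D ht
      exact hz0 (h z hz)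
  · intro a ha b hb
    have h1 : φ * (a * b) * φ = (a * b)⁻¹ := hinv _ (M.mul_mem ha hb)
    have h2 : φ * (a * b) * φ = (φ * a * φ) * (φ * b * φ) := by
      calc φ * (a * b) * φ = φ * a * (φ * φ) * b * φ := by
            rw [ht2]; group
        _ = (φ * a * φ) * (φ * b * φ) := by group
    rw [h2, hinv a ha, hinv b hb, _root_.mul_inv_rev] at h1
    have h3 : a⁻¹ * b⁻¹ = (b * a)⁻¹ := by rw [_root_.mul_inv_rev]
    rw [h3] at h1
    have h4 : (b * a)⁻¹ = (a * b)⁻¹ := by rw [_root_.mul_inv_rev, _root_.mul_inv_rev] at *; exact h1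
    exact (inv_injective h4).symm
  · have h1 := dh_card_R hK D ht
    rw [← h1]
    refine Nat.card_congr (Equiv.ofBijective
      (fun m : M => (⟨φ * m, hsplit m m.2⟩ : {r : Γ // IsRt V K r})) ⟨?_, ?_⟩)
    · intro a b hab
      have : φ * (a : Γ) = φ * b := congrArg Subtype.val hab
      exact Subtype.ext (mul_left_cancel this)
    · rintro ⟨r, hr⟩
      refine ⟨⟨φ * r, hprod r hr⟩, Subtype.ext ?_⟩
      show φ * (φ * r) = r
      rw [← mul_assoc, ht2, one_mul]
  · intro m hm v hv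
    rcases ((hM m).mp hm).2 with h | h
    · exact Or.inl h
    · exact Or.inr (h v hv)
  · intro h hh
    by_cases h1 : h ∈ M
    · exact Or.inl h1
    · right
      have h2 : IsRt V K h := by
        have h3 : ¬ (h = 1 ∨ ∀ v : V, h • v = v → v = 0) := fun h4 => h1 ((hM h).mpr ⟨hh, h4⟩)
        push Not at h3
        obtain ⟨h3, z, hz, hz0⟩ := h3
        exact dh_root_of_fix hK D hh h3 hz0 hz
      refine ⟨φ * h, hprod h h2, ?_⟩
      rw [← mul_assoc, ht2, one_mul]

end dih

end Cfsg.Agent.BinAff
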