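import Cfsg.Agent.Lib.BinK

/-! Binary linear groups: the field attached to the rotation subgroup. -/

set_option autoImplicit false

namespace Cfsg.Agent.BinAff

theorem num_no {p n a : ℕ} (hp : p.Prime) (h1 : 1 ≤ a) (h2 : a < 2 * n) (hd : (p ^ n + 1) ∣ (p ^ a - 1)) :
    False := by
  have hp2 := hp.two_le
  have hpa : 2 ≤ p ^ a := le_trans hp2 (Nat.le_self_pow (by omega) p)
  by_cases h : a ≤ n
  · have h3 : p ^ a ≤ p ^ n := Nat.pow_le_pow_right (by omega) h
    have := Nat.le_of_dvd (by omega) hd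
    omega
  · obtain ⟨b, rfl⟩ : ∃ b, a = n + b := ⟨a - n, by omega⟩
    have hb : 1 ≤ b := by omega
    have h3 : (p ^ n + 1) ∣ (p ^ (n + b) - 1) + (p ^ b + 1) := by
      have h4 : (p ^ (n + b) - 1) + (p ^ b + 1) = p ^ b * (p ^ n + 1) := by
        have h5 : p ^ b * (p ^ n + 1) = p ^ (n + b) + p ^ b := by ring
        rw [h5]
        omega
      rw [h4]
      exact dvd_mul_left _ _
    have h5 := (Nat.dvd_add_right hd).mp h3
    have h6 := Nat.le_of_dvd (by positivity) h5
    have h7 : p ^ n ≤ p ^ b := by omega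
    have h8 := (Nat.pow_le_pow_iff_right (by omega)).mp h7
    omega

variable {V Γ : Type*} [AddCommGroup V] [Finite V] [Group Γ] [DistribMulAction Γ V]

theorem free_dvd (M : Subgroup Γ) (A : AddSubgroup V) (hinv : ∀ m ∈ M, ∀ x ∈ A, m • x ∈ A)
    (hfree : ∀ m ∈ M, ∀ v : V, m • v = v → m = 1 ∨ v = 0) : Nat.card M ∣ Nat.card A - 1 := by
  classical
  letI : Fintype V := Fintype.ofFinite V
  let X := {v : V // v ∈ A ∧ v ≠ 0}
  letI act : MulAction M X :=
    { smul := fun m x => ⟨(m : Γ) • (x : V), hinv m m.2 x x.2.1, fun h =>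
        x.2.2 (by simpa using congrArg (fun y => (m : Γ)⁻¹ • y) h)⟩
      one_smul := fun x => Subtype.ext (one_smul Γ (x : V))
      mul_smul := fun a b x => Subtype.ext (mul_smul (a : Γ) (b : Γ) (x : V)) }
  have hst : ∀ b : X, MulAction.stabilizer M b = ⊥ := by
    intro b
    rw [eq_bot_iff]
    intro m hm
    have h1 : (m : Γ) • (b : V) = b := congrArg Subtype.val (MulAction.mem_stabilizer_iff.mp hm)
    rcases hfree m m.2 b h1 with h | h
    · exact Subgroup.mem_bot.mpr (Subtype.ext h)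
    · exact absurd h b.2.2
  have e := MulAction.selfEquivOrbitsQuotientProd (G := M) (X := X) hst
  have h1 : Nat.card X = Nat.card A - 1 := by
    rw [Nat.card_eq_fintype_card, Fintype.card_subtype, card_filter_ne]
  rw [← h1, Nat.card_congr e, Nat.card_prod]
  exact dvd_mul_left _ _

theorem inv_sub {p n q : ℕ} (hpp : p.Prime) (hq : q = p ^ n) (hV : Nat.card V = q * q) (M : Subgroup Γ)
    (hcard : Nat.card M = q + 1) (hfree : ∀ m ∈ M, ∀ v : V, m • v = v → m = 1 ∨ v = 0)
    (A : AddSubgroup V) (hinv : ∀ m ∈ M, ∀ x ∈ A, m • x ∈ A) (hne : ∃ x ∈ A, x ≠ 0) : A = ⊤ := by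
  have h1 : Nat.card A ∣ Nat.card V := AddSubgroup.card_addSubgroup_dvd_card A
  have hV2 : Nat.card V = p ^ (2 * n) := by rw [hV, hq, ← pow_add, two_mul]
  rw [hV2] at h1
  obtain ⟨a, ha, ha2⟩ := (Nat.dvd_prime_pow hpp).mp h1
  obtain ⟨x, hx, hx0⟩ := hne
  have h2 := one_lt_card_of_ne A hx hx0
  have ha1 : 1 ≤ a := by
    by_contra h
    have : a = 0 := by omega
    rw [this, pow_zero] at ha2
    omega
  by_cases h3 : a = 2 * n
  · apply eq_of_le_of_card_le le_top
    rw [AddSubgroup.card_top, hV2, ha2, h3]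
  · exfalso
    have h4 := free_dvd M A hinv hfree
    rw [hcard, ha2, hq] at h4
    exact num_no hpp ha1 (by omega) h4

/-- the action as an endomorphism -/
noncomputable abbrev toE (g : Γ) : AddMonoid.End V := DistribMulAction.toAddMonoidEnd Γ V g

theorem toE_apply (g : Γ) (v : V) : toE g v = g • v := rfl

theorem toE_mul (g h : Γ) : (toE (g * h) : AddMonoid.End V) = toE g * toE h := map_mul _ _ _

theorem toE_one : (toE (1 : Γ) : AddMonoid.End V) = 1 := map_one _

theorem toE_pow (g : Γ) (n : ℕ) : (toE (g ^ n) : AddMonoid.End V) = (toE g) ^ n := map_pow _ _ _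

variable [FaithfulSMul Γ V]

theorem toE_inj {g h : Γ} (e : (toE g : AddMonoid.End V) = toE h) : g = h :=
  FaithfulSMul.eq_of_smul_eq_smul (α := V) (fun v => DFunLike.congr_fun e v)

theorem exists_rep {p n q : ℕ} [hpp : Fact p.Prime] (hp : ∀ v : V, p • v = 0) (hn : n ≠ 0) (hq : q = p ^ n)
    (hV : Nat.card V = q * q) (M : Subgroup Γ) (hcomm : ∀ m ∈ M, ∀ m' ∈ M, m * m' = m' * m)
    (hcard : Nat.card M = q + 1) (hfree : ∀ m ∈ M, ∀ v : V, m • v = v → m = 1 ∨ v = 0)
    (t : Γ) (ht : t * t = 1) (hinv : ∀ m ∈ M, t * m * t = m⁻¹)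
    (E₀ : Type*) [Field E₀] [Finite E₀] (hE : Nat.card E₀ = q * q) :
    ∃ ι : E₀ →+* AddMonoid.End V, Function.Injective ι ∧ (∀ m ∈ M, ∃ x, ι x = toE m) ∧
      (∀ v₀ : V, v₀ ≠ 0 → Function.Bijective (fun r => ι r v₀)) ∧
      (∀ r, toE t * ι r * toE t = ι (r ^ q)) := by
  classical
  have hq1 : 1 < q := by
    rw [hq]
    exact Nat.one_lt_pow hn hpp.out.one_lt
  have hqne : q ≠ 0 := by omega
  haveI : Nontrivial V := by
    apply Finite.one_lt_card_iff_nontrivial.mp
    rw [hV]
    nlinarith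
  haveI : Nontrivial (AddMonoid.End V) := ⟨⟨1, 0, fun h => by
    obtain ⟨v, hv⟩ := exists_ne (0 : V)
    exact hv (DFunLike.congr_fun h v)⟩⟩
  haveI hchar : CharP (AddMonoid.End V) p := (CharP.charP_iff_prime_eq_zero hpp.out).mpr (by
    ext v
    simp [AddMonoid.End.natCast_apply, hp v])
  let S : Set (AddMonoid.End V) := (fun g => toE g) '' (M : Set Γ)
  have hS : ∀ x ∈ S, ∀ y ∈ S, x * y = y * x := by
    rintro _ ⟨a, ha, rfl⟩ _ ⟨b, hb, rfl⟩
    rw [← toE_mul, ← toE_mul, hcomm a ha b hb]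
  let R : Subring (AddMonoid.End V) := Subring.closure S
  have hRcomm : ∀ x ∈ R, ∀ y ∈ R, x * y = y * x := by
    intro x hx y hy
    have h1 := Subring.isMulCommutative_closure hS
    have h2 := h1.is_comm.comm ⟨x, hx⟩ ⟨y, hy⟩
    exact congrArg Subtype.val h2
  have hSR : ∀ m ∈ M, (toE m : AddMonoid.End V) ∈ R := fun m hm =>
    Subring.subset_closure ⟨m, hm, rfl⟩
  -- kernels are trivial
  have hker : ∀ r ∈ R, r ≠ 0 → ∀ v : V, r v = 0 → v = 0 := by
    intro r hr hr0 v hv
    by_contra hv0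
    have h1 : AddMonoidHom.ker (r : V →+ V) = ⊤ := by
      apply inv_sub hpp.out hq hV M hcard hfree
      · intro m hm x hx
        have h2 := hRcomm r hr _ (hSR m hm)
        have h3 : r (m • x) = m • r x := DFunLike.congr_fun h2 x
        show r (m • x) = 0
        rw [h3, show r x = 0 from hx, smul_zero]
      · exact ⟨v, hv, hv0⟩
    apply hr0
    ext w
    have : w ∈ AddMonoidHom.ker (r : V →+ V) := by rw [h1]; trivial
    exact this
  haveI hRnt : Nontrivial R := ⟨⟨0, 1, fun h => zero_ne_one (congrArg Subtype.val h)⟩⟩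
  haveI hRnz : NoZeroDivisors R := ⟨by
    intro a b hab
    by_contra hc
    push Not at hc
    obtain ⟨v, hv⟩ := exists_ne (0 : V)
    have h1 : (b : AddMonoid.End V) v ≠ 0 := fun h =>
      hv (hker b b.2 (fun h' => hc.2 (Subtype.ext h')) v h)
    have h2 : (a : AddMonoid.End V) ((b : AddMonoid.End V) v) ≠ 0 := fun h =>
      h1 (hker a a.2 (fun h' => hc.1 (Subtype.ext h')) _ h)
    apply h2
    have h3 : ((a * b : R) : AddMonoid.End V) = 0 := by rw [hab]; rfl
    exact DFunLike.congr_fun h3 v⟩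
  haveI hRdom : IsDomain R := NoZeroDivisors.to_isDomain R
  haveI hEf : Finite (AddMonoid.End V) :=
    Finite.of_injective (fun f : AddMonoid.End V => (f : V → V)) DFunLike.coe_injective
  letI hRf : Field R := (Finite.isDomain_to_isField R).toField
  -- evaluation is bijective
  have hev : ∀ v₀ : V, v₀ ≠ 0 → Function.Bijective (fun r : R => (r : AddMonoid.End V) v₀) := by
    intro v₀ hv₀
    constructor
    · intro a b hab
      have hab' : (a : AddMonoid.End V) v₀ = (b : AddMonoid.End V) v₀ := hab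
      by_contra hne
      have h1 : (a : AddMonoid.End V) - b ≠ 0 := fun h => hne (Subtype.ext (sub_eq_zero.mp h))
      refine hv₀ (hker _ (R.sub_mem a.2 b.2) h1 v₀ ?_)
      show (a : AddMonoid.End V) v₀ - (b : AddMonoid.End V) v₀ = 0
      rw [hab', sub_self]
    · let A : AddSubgroup V :=
        { carrier := {v | ∃ r ∈ R, r v₀ = v}
          add_mem' := by
            rintro _ _ ⟨a, ha, rfl⟩ ⟨b, hb, rfl⟩
            exact ⟨a + b, R.add_mem ha hb, rfl⟩
          zero_mem' := ⟨0, R.zero_mem, rfl⟩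
          neg_mem' := by
            rintro _ ⟨a, ha, rfl⟩
            exact ⟨-a, R.neg_mem ha, rfl⟩ }
      have hA : A = ⊤ := by
        apply inv_sub hpp.out hq hV M hcard hfree
        · rintro m hm _ ⟨a, ha, rfl⟩
          exact ⟨toE m * a, R.mul_mem (hSR m hm) ha, rfl⟩
        · exact ⟨v₀, ⟨1, R.one_mem, rfl⟩, hv₀⟩
      intro v
      have : v ∈ A := by rw [hA]; trivial
      obtain ⟨r, hr, rfl⟩ := this
      exact ⟨⟨r, hr⟩, rfl⟩
  have hRcard : Nat.card R = q * q := by
    obtain ⟨v, hv⟩ := exists_ne (0 : V)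
    rw [← hV]
    exact Nat.card_congr (Equiv.ofBijective _ (hev v hv))
  letI : Fintype R := Fintype.ofFinite R
  letI : Fintype E₀ := Fintype.ofFinite E₀
  let ψ : R ≃+* E₀ := FiniteField.ringEquivOfCardEq (by
    rw [Fintype.card_eq_nat_card, Fintype.card_eq_nat_card, hRcard, hE])
  let ι : E₀ →+* AddMonoid.End V :=
    { toFun := fun r => ((ψ.symm r : R) : AddMonoid.End V)
      map_one' := by
        rw [map_one]; rfl
      map_mul' := fun a b => by
        rw [map_mul]; rfl
      map_zero' := by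
        rw [map_zero]; rfl
      map_add' := fun a b => by
        rw [map_add]; rfl }
  have hι : ∀ r, ι r = ((ψ.symm r : R) : AddMonoid.End V) := fun r => rfl
  -- conjugation by `t` is the power map
  have hT2 : (toE t : AddMonoid.End V) * toE t = 1 := by rw [← toE_mul, ht, toE_one]
  have hconj : ∀ x (hx : x ∈ R), (toE t : AddMonoid.End V) * x * toE t = x ^ q := by
    intro x hx
    have hq' : q = p ^ n := hq
    induction hx using Subring.closure_induction with
    | mem x hx =>
      obtain ⟨m, hm, rfl⟩ := hx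
      have h1 : (⟨m, hm⟩ : M) ^ Nat.card M = 1 := pow_card_eq_one'
      rw [hcard] at h1
      have h2 : m ^ (q + 1) = 1 := by
        have := congrArg Subtype.val h1
        simpa using this
      have h3 : m ^ q = m⁻¹ := by
        rw [pow_succ] at h2
        exact eq_inv_of_mul_eq_one_left h2
      show (toE t : AddMonoid.End V) * toE m * toE t = (toE m) ^ q
      rw [← toE_pow, h3, ← hinv m hm, toE_mul, toE_mul]
    | zero => rw [mul_zero, zero_mul, zero_pow hqne]
    | one => rw [mul_one, hT2, one_pow]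
    | add x y hx hy h1 h2 =>
      rw [mul_add, add_mul, h1, h2, hq']
      exact (add_pow_expChar_pow_of_commute p n (hRcomm x hx y hy : Commute x y)).symm
    | neg x hx h1 =>
      rw [mul_neg, neg_mul, h1, hq']
      have h3 := sub_pow_expChar_pow_of_commute p n (Commute.zero_left x)
      rw [zero_sub, zero_pow (pow_ne_zero _ hpp.out.ne_zero), zero_sub] at h3
      exact h3.symm
    | mul x y hx hy h1 h2 =>
      have h3 : (x * y) ^ q = x ^ q * y ^ q := Commute.mul_pow (hRcomm x hx y hy) q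
      rw [h3, ← h1, ← h2]
      calc (toE t : AddMonoid.End V) * (x * y) * toE t
          = toE t * x * 1 * y * toE t := by rw [mul_one]; noncomm_ring
        _ = toE t * x * (toE t * toE t) * y * toE t := by rw [hT2]
        _ = _ := by noncomm_ring
  refine ⟨ι, ?_, ?_, ?_, ?_⟩
  · intro a b hab
    exact ψ.symm.injective (Subtype.ext hab)
  · intro m hm
    refine ⟨ψ ⟨toE m, hSR m hm⟩, ?_⟩
    rw [hι, RingEquiv.symm_apply_apply]
  · intro v₀ hv₀
    have := (hev v₀ hv₀).comp ψ.symm.bijective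
    exact this
  · intro r
    rw [map_pow]
    exact hconj _ (ψ.symm r).2

end Cfsg.Agent.BinAff
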