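import Cfsg.Agent.Lib.BinL

/-! Binary linear groups: explicit field form of the dihedral group. -/

set_option autoImplicit false

namespace Cfsg.Agent.BinAff

variable {V Γ : Type*} [AddCommGroup V] [Finite V] [Group Γ] [DistribMulAction Γ V] [FaithfulSMul Γ V]

theorem field_form {p n q : ℕ} [hpp : Fact p.Prime] (hp : ∀ v : V, p • v = 0) (hn : n ≠ 0) (hq : q = p ^ n)
    (hV : Nat.card V = q * q) (K M : Subgroup Γ) (hMK : M ≤ K) (hcomm : ∀ m ∈ M, ∀ m' ∈ M, m * m' = m' * m)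
    (hcard : Nat.card M = q + 1) (hfree : ∀ m ∈ M, ∀ v : V, m • v = v → m = 1 ∨ v = 0)
    (t : Γ) (htK : t ∈ K) (ht : t * t = 1) (hinv : ∀ m ∈ M, t * m * t = m⁻¹)
    (hsplit : ∀ h ∈ K, h ∈ M ∨ ∃ m ∈ M, h = t * m)
    (E₀ : Type*) [Field E₀] [Finite E₀] (hE : Nat.card E₀ = q * q) :
    ∃ e : V ≃+ E₀,
      (∀ h ∈ K, ∃ a : E₀, a ^ (q + 1) = 1 ∧
        ((∀ v, e (h • v) = a * e v) ∨ (∀ v, e (h • v) = a * (e v) ^ q))) ∧
      (∀ a : E₀, a ^ (q + 1) = 1 →
        (∃ h ∈ K, ∀ v, e (h • v) = a * e v) ∧ (∃ h ∈ K, ∀ v, e (h • v) = a * (e v) ^ q)) := by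
  classical
  obtain ⟨ι, hιinj, hιM, hιb, hιc⟩ := exists_rep hp hn hq hV M hcomm hcard hfree t ht hinv E₀ hE
  have hq1 : 1 < q := by
    rw [hq]
    exact Nat.one_lt_pow hn hpp.out.one_lt
  haveI : Nontrivial V := by
    apply Finite.one_lt_card_iff_nontrivial.mp
    rw [hV]
    nlinarith
  obtain ⟨v₀, hv₀⟩ := exists_ne (0 : V)
  let f : E₀ →+ V :=
    { toFun := fun r => ι r v₀
      map_zero' := by rw [map_zero]; rfl
      map_add' := fun a b => by rw [map_add]; rfl }
  let e : V ≃+ E₀ := (AddEquiv.ofBijective f (hιb v₀ hv₀)).symm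
  have he1 : ∀ r, e (ι r v₀) = r := fun r => (AddEquiv.ofBijective f (hιb v₀ hv₀)).symm_apply_apply r
  have he2 : ∀ v, ι (e v) v₀ = v := fun v => (AddEquiv.ofBijective f (hιb v₀ hv₀)).apply_symm_apply v
  have hmul : ∀ (m : Γ) (x : E₀), ι x = toE m → ∀ v, e (m • v) = x * e v := by
    intro m x hx v
    have h1 : m • v = ι (x * e v) v₀ := by
      rw [map_mul, hx]
      show m • v = m • (ι (e v) v₀)
      rw [he2]
    rw [h1, he1]
  have ht2 : ∀ v : V, t • t • v = v := by
    intro v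
    rw [← mul_smul, ht, one_smul]
  set a₀ := e (t • v₀) with ha₀
  have he1' : e v₀ = 1 := by
    have h1 := he1 1
    rwa [map_one] at h1
  have htv : ∀ v, e (t • v) = (e v) ^ q * a₀ := by
    intro v
    have h1 : t • v = ι ((e v) ^ q * a₀) v₀ := by
      rw [map_mul, ← hιc]
      show t • v = toE t (ι (e v) (t • (ι a₀ v₀)))
      rw [he2 (t • v₀), ht2, he2]
      rfl
    rw [h1, he1]
  have ha₀1 : a₀ ^ (q + 1) = 1 := by
    have h1 := htv (t • v₀)
    rw [ht2, he1', ← ha₀] at h1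
    rw [pow_succ]
    exact h1.symm
  have ha₀0 : a₀ ≠ 0 := by
    intro h
    rw [h, zero_pow (by omega)] at ha₀1
    exact zero_ne_one ha₀1
  -- `M` gives all roots of unity of order `q + 1`
  have hpowM : ∀ m ∈ M, ∀ x : E₀, ι x = toE m → x ^ (q + 1) = 1 := by
    intro m hm x hx
    apply hιinj
    rw [map_pow, hx, map_one, ← toE_pow]
    have h1 : (⟨m, hm⟩ : M) ^ Nat.card M = 1 := pow_card_eq_one'
    rw [hcard] at h1
    have h2 : m ^ (q + 1) = 1 := by
      have := congrArg Subtype.val h1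
      simpa using this
    rw [h2, toE_one]
  have hroots : ∀ x : E₀, x ^ (q + 1) = 1 → ∃ m ∈ M, ι x = toE m := by
    choose! φ hφ using hιM
    haveI : Finite M := Nat.finite_of_card_ne_zero (by rw [hcard]; omega)
    letI : Fintype M := Fintype.ofFinite M
    let S : Finset E₀ := Finset.univ.image (fun m : M => φ m)
    have hScard : S.card = q + 1 := by
      rw [Finset.card_image_of_injective, Finset.card_univ, ← Nat.card_eq_fintype_card, hcard]
      intro a b hab
      have hab' : φ (a : Γ) = φ (b : Γ) := hab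
      have h1 : (toE (a : Γ) : AddMonoid.End V) = toE (b : Γ) := by
        rw [← hφ a a.2, ← hφ b b.2, hab']
      exact Subtype.ext (toE_inj h1)
    have hpos : 0 < q + 1 := by omega
    have hsub : S ⊆ (Polynomial.nthRoots (q + 1) (1 : E₀)).toFinset := by
      intro y hy
      obtain ⟨m, _, rfl⟩ := Finset.mem_image.mp hy
      rw [Multiset.mem_toFinset, Polynomial.mem_nthRoots hpos]
      exact hpowM m m.2 _ (hφ m m.2)
    have hle : (Polynomial.nthRoots (q + 1) (1 : E₀)).toFinset.card ≤ S.card := by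
      rw [hScard]
      exact (Multiset.toFinset_card_le _).trans (Polynomial.card_nthRoots _ _)
    have heq := Finset.eq_of_subset_of_card_le hsub hle
    intro x hx
    have hx' : x ∈ S := by
      rw [heq, Multiset.mem_toFinset, Polynomial.mem_nthRoots hpos]
      exact hx
    obtain ⟨m, _, rfl⟩ := Finset.mem_image.mp hx'
    exact ⟨m, m.2, hφ m m.2⟩
  refine ⟨e, ?_, ?_⟩
  · intro h hh
    rcases hsplit h hh with hM | ⟨m, hm, rfl⟩
    · obtain ⟨x, hx⟩ := hιM h hM
      exact ⟨x, hpowM h hM x hx, Or.inl (hmul h x hx)⟩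
    · obtain ⟨x, hx⟩ := hιM m hm
      have hx1 := hpowM m hm x hx
      refine ⟨x ^ q * a₀, ?_, Or.inr ?_⟩
      · rw [mul_pow, ha₀1, mul_one, ← pow_mul, mul_comm, pow_mul, hx1, one_pow]
      · intro v
        rw [mul_smul, htv, hmul m x hx, mul_pow]
        ring
  · intro a ha
    constructor
    · obtain ⟨m, hm, hm'⟩ := hroots a ha
      exact ⟨m, hMK hm, hmul m a hm'⟩
    · have h1 : (a * a₀⁻¹) ^ (q + 1) = 1 := by
        rw [mul_pow, inv_pow, ha₀1, inv_one, mul_one, ha]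
      obtain ⟨m, hm, hm'⟩ := hroots _ h1
      refine ⟨m * t, K.mul_mem (hMK hm) htK, fun v => ?_⟩
      rw [mul_smul, hmul m _ hm', htv]
      field_simp

end Cfsg.Agent.BinAff
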