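import Cfsg.Agent.Lib.BinM

/-! Binary linear groups: the main linear theorem. -/

set_option autoImplicit false

namespace Cfsg.Agent.BinAff

variable {V Γ : Type*} [AddCommGroup V] [Finite V] [Group Γ] [Finite Γ] [DistribMulAction Γ V]
  [FaithfulSMul Γ V]

theorem lin_main {K : Subgroup Γ} {p : ℕ} [hpp : Fact p.Prime] [Nontrivial V] (hK : Bin V K)
    (hp : ∀ v : V, p • v = 0)
    (hirr : ∀ A : AddSubgroup V, (∀ g ∈ K, ∀ x ∈ A, g • x ∈ A) → A = ⊥ ∨ A = ⊤) :
    PrimeCase V K ∨
      ∃ (F E : Type) (_ : Field F) (_ : Fintype F) (_ : Field E) (_ : Fintype E) (_ : Algebra F E)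
        (e : V ≃+ E), Module.finrank F E = 2 ∧
        (∀ h ∈ K, ∃ (a : E) (φ : E ≃ₐ[F] E), Algebra.norm F a = 1 ∧ ∀ v, e (h • v) = a * φ (e v)) ∧
        (∀ (a : E) (φ : E ≃ₐ[F] E), Algebra.norm F a = 1 → ∃ h ∈ K, ∀ v, e (h • v) = a * φ (e v)) := by
  have hmain : PrimeCase V K ∨ ∃ q, DH V K q := by
    rcases hpp.out.eq_two_or_odd' with h2 | ⟨m, hm⟩
    · subst h2
      exact two_main hK (fun v => by rw [← two_nsmul]; exact hp v) hirr
    · refine odd_main hK (fun v hv => ?_) hp hirr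
      have h1 := hp v
      rw [hm, add_nsmul, one_nsmul, mul_nsmul', two_nsmul, add_comm] at h1
      have h2 : m • (v + v) = 0 := by rw [hv, nsmul_zero]
      rw [nsmul_add] at h2
      rw [h2, add_zero] at h1
      exact h1
  rcases hmain with h | ⟨q, D⟩
  · exact Or.inl h
  right
  -- `q` is a power of `p`
  have hcardV : ∃ k, Nat.card V = p ^ k := by
    letI : Module (ZMod p) V := AddCommGroup.zmodModule hp
    exact ⟨_, (FiniteField.pow_finrank_eq_natCard p V).symm⟩
  obtain ⟨k, hk⟩ := hcardV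
  have hq1 := D.qgt
  have hdvd : q ∣ p ^ k := by
    rw [← hk, D.cardV]
    exact dvd_mul_right _ _
  obtain ⟨n, _, hqn⟩ := (Nat.dvd_prime_pow hpp.out).mp hdvd
  have hn : n ≠ 0 := by
    rintro rfl
    rw [pow_zero] at hqn
    omega
  obtain ⟨M, t, hMK, htK, ht2, _, hcomm, hcard, hfree, hinv, hsplit⟩ := dh_struct hK D
  haveI : NeZero n := ⟨hn⟩
  let F : Type := GaloisField p n
  let E : Type := FiniteField.Extension F p 2
  have hFc : Nat.card F = q := by
    rw [hqn]
    exact GaloisField.card p n hn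
  have hEc : Nat.card E = q * q := by
    rw [FiniteField.natCard_extension, hFc, pow_two]
  obtain ⟨e, he1, he2⟩ := field_form hp hn hqn D.cardV K M hMK hcomm hcard hfree t htK ht2 hinv hsplit E hEc
  have hnorm : ∀ a : E, Algebra.norm F a = 1 ↔ a ^ (q + 1) = 1 := by
    intro a
    have h1 := FiniteField.algebraMap_norm_eq_pow (K := F) (K' := E) (x := a)
    have h2 : (Nat.card E - 1) / (Nat.card F - 1) = q + 1 := by
      rw [hEc, hFc]
      obtain ⟨r, rfl⟩ : ∃ r, q = r + 1 := ⟨q - 1, by omega⟩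
      have h3 : (r + 1) * (r + 1) - 1 = (r + 1 + 1) * r := by
        have : (r + 1) * (r + 1) = (r + 1 + 1) * r + 1 := by ring
        omega
      rw [h3, Nat.add_sub_cancel, Nat.mul_div_cancel _ (by omega)]
    rw [h2] at h1
    constructor
    · intro h
      rw [← h1, h, map_one]
    · intro h
      apply (algebraMap F E).injective
      rw [h1, h, map_one]
  have hfrob : ∀ x : E, FiniteField.Extension.frob F p 2 x = x ^ q := by
    intro x
    rw [FiniteField.Extension.frob_apply, hFc]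
  letI : Fintype F := Fintype.ofFinite F
  letI : Fintype E := Fintype.ofFinite E
  refine ⟨F, E, inferInstance, inferInstance, inferInstance, inferInstance, inferInstance, e, ?_, ?_, ?_⟩
  · exact FiniteField.finrank_extension F p 2
  · intro h hh
    obtain ⟨a, ha, halt⟩ := he1 h hh
    rcases halt with halt | halt
    · exact ⟨a, AlgEquiv.refl, (hnorm a).mpr ha, fun v => by rw [halt]; rfl⟩
    · exact ⟨a, FiniteField.Extension.frob F p 2, (hnorm a).mpr ha, fun v => by rw [halt, hfrob]⟩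
  · intro a φ ha
    have ha' := (hnorm a).mp ha
    obtain ⟨i, hi, hφ⟩ := FiniteField.Extension.exists_frob_pow_eq F p 2 φ
    obtain ⟨⟨h₁, hh₁, e₁⟩, ⟨h₂, hh₂, e₂⟩⟩ := he2 a ha'
    interval_cases i
    · refine ⟨h₁, hh₁, fun v => ?_⟩
      rw [e₁, ← hφ]
      simp
    · refine ⟨h₂, hh₂, fun v => ?_⟩
      rw [e₂, ← hφ, pow_one, hfrob]

end Cfsg.Agent.BinAff
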