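import Cfsg.Agent.Lib.BinN

/-! Binary primitive groups with abelian normal subgroup: reduction to the linear case. -/

set_option autoImplicit false

namespace Cfsg.Agent.BinAff

variable {G : Type*} [Group G]

/-- the commutative group structure of a commutative subgroup -/
@[reducible] def cgA (A : Subgroup G) [IsMulCommutative A] : CommGroup A :=
  { (inferInstance : Group A) with mul_comm := fun a b => mul_comm' a b }

/-- the additive copy of an abelian subgroup -/
def VV (A : Subgroup G) : Type _ := Additive A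

section
variable {A : Subgroup G} [hAc : IsMulCommutative A]

instance : AddCommGroup (VV A) := @Additive.addCommGroup A (cgA A)

instance [Finite G] : Finite (VV A) := inferInstanceAs (Finite (Additive A))

/-- the value in the group -/
def tau (v : VV A) : G := ((Additive.toMul v : A) : G)

/-- the vector of an element of `A` -/
def mkV (g : G) (hg : g ∈ A) : VV A := Additive.ofMul (⟨g, hg⟩ : A)

@[simp] theorem tau_mk (g : G) (hg : g ∈ A) : tau (mkV g hg) = g := rfl

theorem tau_mem (v : VV A) : tau v ∈ A := (Additive.toMul v).2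

theorem tau_inj {x y : VV A} (h : tau x = tau y) : x = y := by
  have h1 : Additive.toMul x = Additive.toMul y := Subtype.ext h
  exact Additive.toMul.injective h1

@[simp] theorem tau_add (x y : VV A) : tau (x + y) = tau x * tau y := rfl

@[simp] theorem tau_zero : tau (0 : VV A) = 1 := rfl

@[simp] theorem tau_neg (x : VV A) : tau (-x) = (tau x)⁻¹ := rfl

theorem tau_sub (x y : VV A) : tau (x - y) = tau x * (tau y)⁻¹ := by
  rw [sub_eq_add_neg, tau_add, tau_neg]

theorem tau_nsmul (n : ℕ) (x : VV A) : tau (n • x) = (tau x) ^ n := by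
  induction n with
  | zero => simp
  | succ n ih => rw [succ_nsmul, tau_add, ih, pow_succ]

variable [hAn : A.Normal]

/-- conjugation action of a subgroup -/
instance actH (H : Subgroup G) : DistribMulAction H (VV A) where
  smul h v := mkV ((h : G) * tau v * (h : G)⁻¹) (hAn.conj_mem _ (tau_mem v) h)
  one_smul v := tau_inj (by
    show ((1 : H) : G) * tau v * ((1 : H) : G)⁻¹ = tau v
    simp)
  mul_smul a b v := tau_inj (by
    show ((a * b : H) : G) * tau v * ((a * b : H) : G)⁻¹ =
      (a : G) * ((b : G) * tau v * (b : G)⁻¹) * (a : G)⁻¹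
    simp only [Subgroup.coe_mul]
    group)
  smul_zero h := tau_inj (by
    show (h : G) * tau (0 : VV A) * (h : G)⁻¹ = 1
    simp)
  smul_add h x y := tau_inj (by
    show (h : G) * tau (x + y) * (h : G)⁻¹ =
      ((h : G) * tau x * (h : G)⁻¹) * ((h : G) * tau y * (h : G)⁻¹)
    simp only [tau_add]
    group)

theorem tau_smul {H : Subgroup G} (h : H) (v : VV A) : tau (h • v) = (h : G) * tau v * (h : G)⁻¹ := rfl

end

section action
variable {Ω : Type*} [MulAction G Ω] {A : Subgroup G} [hAc : IsMulCommutative A] [hAn : A.Normal]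

/-- the point of a vector -/
def beta (ω₀ : Ω) (v : VV A) : Ω := tau v • ω₀

theorem beta_add (ω₀ : Ω) (x y : VV A) : beta ω₀ (x + y) = tau x • beta ω₀ y := by
  simp only [beta, tau_add, mul_smul]

theorem smul_beta (ω₀ : Ω) (h : MulAction.stabilizer G ω₀) (v : VV A) :
    (h : G) • beta ω₀ v = beta ω₀ (h • v) := by
  have h1 : (h : G)⁻¹ • ω₀ = ω₀ := by
    rw [inv_smul_eq_iff]
    exact (MulAction.mem_stabilizer_iff.mp h.2).symm
  simp only [beta, tau_smul, mul_smul, h1]

variable {ω₀ : Ω} (hreg : ∀ a ∈ A, a • ω₀ = ω₀ → a = 1) (htr : ∀ ω : Ω, ∃ a ∈ A, a • ω₀ = ω)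

include hreg in
theorem beta_inj {x y : VV A} (h : beta ω₀ x = beta ω₀ y) : x = y := by
  have h1 : (tau y)⁻¹ * tau x = 1 := hreg _ (A.mul_mem (A.inv_mem (tau_mem y)) (tau_mem x)) (by
    rw [mul_smul, inv_smul_eq_iff]
    exact h)
  apply tau_inj
  exact (inv_mul_eq_one.mp h1).symm

include htr in
theorem beta_surj (ω : Ω) : ∃ x : VV A, beta ω₀ x = ω := by
  obtain ⟨a, ha, rfl⟩ := htr ω
  exact ⟨mkV a ha, rfl⟩

include htr in
/-- decomposition of group elements -/
theorem decomp (g : G) : ∃ (x : VV A) (h : MulAction.stabilizer G ω₀), g = tau x * (h : G) := by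
  obtain ⟨a, ha, e⟩ := htr (g • ω₀)
  refine ⟨mkV a ha, ⟨a⁻¹ * g, ?_⟩, ?_⟩
  · rw [MulAction.mem_stabilizer_iff, mul_smul, ← e, inv_smul_smul]
  · simp

theorem action_formula {x : VV A} {h : MulAction.stabilizer G ω₀} (v : VV A) :
    (tau x * (h : G)) • beta ω₀ v = beta ω₀ (x + h • v) := by
  rw [mul_smul, smul_beta, beta_add]

include htr in
theorem faithful_H [FaithfulSMul G Ω] : FaithfulSMul (MulAction.stabilizer G ω₀) (VV A) := by
  constructor
  intro h k hk
  apply Subtype.ext
  apply FaithfulSMul.eq_of_smul_eq_smul (α := Ω)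
  intro ω
  obtain ⟨x, rfl⟩ := beta_surj htr ω
  rw [smul_beta, smul_beta, hk]

include hreg htr in
/-- heredity of the binary property to the point stabilizer -/
theorem bin_H [Finite G] (hbin : ∀ (n : ℕ) (I J : Fin n → Ω), 2 ≤ n →
      (∀ i j : Fin n, i ≠ j → ∃ g : G, g • I i = J i ∧ g • I j = J j) → ∃ g : G, ∀ i, g • I i = J i) :
    Bin (VV A) (⊤ : Subgroup (MulAction.stabilizer G ω₀)) := by
  intro n a b h1 h2
  let I : Fin (n + 2) → Ω := fun i => if hi : i.val < n then beta ω₀ (a ⟨i, hi⟩) else ω₀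
  let J : Fin (n + 2) → Ω := fun i => if hi : i.val < n then beta ω₀ (b ⟨i, hi⟩) else ω₀
  obtain ⟨g, hg⟩ := hbin (n + 2) I J (by omega) (by
    intro i j _
    by_cases hi : i.val < n <;> by_cases hj : j.val < n
    · obtain ⟨h, _, e⟩ := h1 ⟨i, hi⟩ ⟨j, hj⟩
      refine ⟨tau (b ⟨j, hj⟩) * (h : G) * (tau (a ⟨j, hj⟩))⁻¹, ?_, ?_⟩
      · simp only [I, J, hi, hj, dif_pos]
        have h3 : (tau (a ⟨j, hj⟩))⁻¹ • beta ω₀ (a ⟨i, hi⟩) = beta ω₀ (a ⟨i, hi⟩ - a ⟨j, hj⟩) := by
          rw [sub_eq_neg_add, beta_add, tau_neg]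
        rw [mul_smul, mul_smul, h3, smul_beta, e, ← beta_add]
        congr 1
        abel
      · simp only [I, J, hj, dif_pos]
        have h3 : (tau (a ⟨j, hj⟩))⁻¹ • beta ω₀ (a ⟨j, hj⟩) = ω₀ := by
          simp [beta]
        rw [mul_smul, mul_smul, h3, MulAction.mem_stabilizer_iff.mp h.2]
        rfl
    · obtain ⟨h, _, e⟩ := h2 ⟨i, hi⟩
      refine ⟨(h : G), ?_, ?_⟩
      · simp only [I, J, hi, dif_pos]
        rw [smul_beta, e]
      · simp only [I, J, hj, dif_neg, not_false_eq_true]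
        exact MulAction.mem_stabilizer_iff.mp h.2
    · obtain ⟨h, _, e⟩ := h2 ⟨j, hj⟩
      refine ⟨(h : G), ?_, ?_⟩
      · simp only [I, J, hi, dif_neg, not_false_eq_true]
        exact MulAction.mem_stabilizer_iff.mp h.2
      · simp only [I, J, hj, dif_pos]
        rw [smul_beta, e]
    · refine ⟨1, ?_, ?_⟩
      · simp only [I, J, hi, dif_neg, not_false_eq_true, one_smul]
      · simp only [I, J, hj, dif_neg, not_false_eq_true, one_smul])
  have hg0 : g • ω₀ = ω₀ := by
    have := hg ⟨n, by omega⟩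
    simpa [I, J] using this
  have hgmem : g ∈ MulAction.stabilizer G ω₀ := MulAction.mem_stabilizer_iff.mpr hg0
  refine ⟨⟨g, hgmem⟩, Subgroup.mem_top _, fun i => ?_⟩
  have h3 := hg ⟨i, by omega⟩
  simp only [I, J, i.2, dif_pos] at h3
  apply beta_inj hreg
  rw [← smul_beta]
  exact h3

include hreg htr in
/-- irreducibility from primitivity -/
theorem irr_H (hprim : MulAction.IsPreprimitive G Ω) (B : AddSubgroup (VV A))
    (hinv : ∀ g ∈ (⊤ : Subgroup (MulAction.stabilizer G ω₀)), ∀ x ∈ B, g • x ∈ B) : B = ⊥ ∨ B = ⊤ := by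
  let T : Set Ω := (fun v => beta ω₀ v) '' (B : Set (VV A))
  have hblock : MulAction.IsBlock G T := by
    rw [MulAction.isBlock_iff_smul_eq_of_nonempty]
    rintro g ⟨y, hy, hy2⟩
    obtain ⟨z, hz, rfl⟩ := Set.mem_smul_set.mp hy
    obtain ⟨x₁, hx₁, rfl⟩ := hz
    obtain ⟨x₂, hx₂, hx₂e⟩ := hy2
    obtain ⟨a, h, rfl⟩ := decomp htr g
    rw [action_formula] at hx₂e
    have h1 := beta_inj hreg hx₂e
    have ha : a ∈ B := by
      have h2 : a = x₂ - h • x₁ := by rw [h1]; abel
      rw [h2]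
      exact B.sub_mem hx₂ (hinv h (Subgroup.mem_top _) x₁ hx₁)
    ext w
    constructor
    · intro hw
      obtain ⟨u, hu, rfl⟩ := Set.mem_smul_set.mp hw
      obtain ⟨c, hc, rfl⟩ := hu
      exact ⟨a + h • c, B.add_mem ha (hinv h (Subgroup.mem_top _) c hc), (action_formula c).symm⟩
    · rintro ⟨c, hc, rfl⟩
      refine Set.mem_smul_set.mpr ⟨beta ω₀ (h⁻¹ • (c - a)),
        ⟨_, hinv h⁻¹ (Subgroup.mem_top _) _ (B.sub_mem hc ha), rfl⟩, ?_⟩
      rw [action_formula, smul_inv_smul]
      congr 1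
      abel
  rcases hblock.subsingleton_or_eq_univ with h | h
  · left
    rw [eq_bot_iff]
    intro x hx
    have h1 : beta ω₀ x = beta ω₀ 0 := h ⟨x, hx, rfl⟩ ⟨0, B.zero_mem, rfl⟩
    exact beta_inj hreg h1
  · right
    rw [eq_top_iff]
    intro x _
    have h1 : beta ω₀ x ∈ T := by rw [h]; trivial
    obtain ⟨y, hy, hye⟩ := h1
    rw [← beta_inj hreg hye]
    exact hy

end action

end Cfsg.Agent.BinAff
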