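import Mathlib
import Cfsg.Prelude.Def_Blocks
import Cfsg.Agent.Lib.BlkOrth
import Cfsg.Agent.Lib.BlkCount
import Cfsg.Agent.Lib.BlkFirst
import Cfsg.Agent.Lib.CharAvg
import Cfsg.Agent.Lib.BlockVal
import Cfsg.Agent.Lib.CharIto

/-!
# Characters of central defect

A trace lemma for monomial matrices over the local ring; vanishing of characters of "relative defect
zero" modulo a central `p`-subgroup `D`, and the fact that `D` is the defect group of the block.
-/

set_option autoImplicit false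
set_option linter.unusedSectionVars false
set_option linter.unusedVariables false
set_option linter.style.haveILetI false

namespace Cfsg.Agent.Lib.BlkCentralD

open Cfsg Cfsg.Agent.Lib.CharBasic Cfsg.Agent.Lib.CharInd Cfsg.Agent.Lib.CharIntegrality
open Cfsg.Agent.Lib.BlockLocal Cfsg.Agent.Lib.BlockIdem Cfsg.Agent.Lib.BlkBasic
open Cfsg.Agent.Lib.BlkTrace Cfsg.Agent.Lib.BlkOrth Cfsg.Agent.Lib.CharAvg
open Cfsg.Agent.Lib.BlockVal
open scoped ComplexConjugate

universe u

section Monomial

variable {p : ℕ} {M : Ideal AlgInt}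

/-- **Trace lemma for monomial matrices.**  Let `E` be an idempotent matrix over the local ring at
`M`, commuting with a monomial matrix `O` with underlying permutation `σ`, all of whose orbits have
length divisible by `p`.  Then the trace of `O E` vanishes. -/
theorem monomial_trace_eq_zero (hM : IsPModular p M) {X : Type*} [Fintype X] [DecidableEq X]
    (E O : Matrix X X ℂ) (σ : Equiv.Perm X)
    (hlocE : ∀ u v, MemLocalRing M (E u v)) (hlocO : ∀ u v, MemLocalRing M (O u v))
    (hE : E * E = E) (hOE : O * E = E * O)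
    (hO : ∀ u v, σ u ≠ v → O u v = 0)
    (hfree : ∀ x, ∀ k : ℤ, (σ ^ k) x = x → (p : ℤ) ∣ k) :
    (O * E).trace = 0 := by
  classical
  have hPr : M.IsPrime := hM.2.1.isPrime
  have hp := hM.1
  let φ : localSubring M →+* ℂ := (localSubring M).subtype
  have hφ : Function.Injective φ := Subtype.val_injective
  let Eh : Matrix X X (localSubring M) := Matrix.of fun u v => ⟨E u v, hlocE u v⟩
  let Oh : Matrix X X (localSubring M) := Matrix.of fun u v => ⟨O u v, hlocO u v⟩
  have hEh_map : Eh.map φ = E := by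
    ext u v
    rfl
  have hOh_map : Oh.map φ = O := by
    ext u v
    rfl
  have hEh : Eh * Eh = Eh := by
    apply Matrix.map_injective hφ
    have : (Eh * Eh).map φ = (Eh.map φ) * (Eh.map φ) := Matrix.map_mul
    show (Eh * Eh).map φ = Eh.map φ
    rw [this, hEh_map, hE]
  have hOEh : Oh * Eh = Eh * Oh := by
    apply Matrix.map_injective hφ
    have h1 : (Oh * Eh).map φ = (Oh.map φ) * (Eh.map φ) := Matrix.map_mul
    have h2 : (Eh * Oh).map φ = (Eh.map φ) * (Oh.map φ) := Matrix.map_mul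
    show (Oh * Eh).map φ = (Eh * Oh).map φ
    rw [h1, h2, hEh_map, hOh_map, hOE]
  -- the diagonal matrix
  obtain ⟨ω, hωp, hω1⟩ := exists_root hM
  have hω0 : ω ≠ 0 := by
    rintro rfl
    rw [zero_pow hp.ne_zero] at hωp
    exact zero_ne_one hωp
  have hωint : IsIntegral ℤ ω := by
    apply IsIntegral.of_pow hp.pos
    rw [hωp]
    exact isIntegral_one
  let ωh : localSubring M := ⟨ω, memLocalRing_of_isIntegral hωint⟩
  let ωi : localSubring M := ωh ^ (p - 1)
  have hωωi : ωh * ωi = 1 := by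
    apply Subtype.ext
    show ω * ω ^ (p - 1) = 1
    rw [← pow_succ', Nat.sub_add_cancel hp.one_le, hωp]
  let ωu : (localSubring M)ˣ := ⟨ωh, ωi, hωωi, by rw [mul_comm]; exact hωωi⟩
  have hωuval : (ωu : localSubring M) = ωh := rfl
  have hωpow : ωu ^ p = 1 := by
    apply Units.ext
    apply Subtype.ext
    show ω ^ p = 1
    exact hωp
  have hres : IsLocalRing.residue (localSubring M) (ωu : localSubring M) = 1 := by
    rw [hωuval, ← sub_eq_zero, ← map_one (IsLocalRing.residue (localSubring M)), ← map_sub,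
      IsLocalRing.residue_eq_zero_iff]
    exact maxIdeal_of_memLocalIdeal _ (memLocalIdeal_sub_one hM hωp)
  have hresu : Units.map (IsLocalRing.residue (localSubring M)).toMonoidHom ωu = 1 := by
    apply Units.ext
    exact hres
  have hreszp : ∀ k : ℤ, IsLocalRing.residue (localSubring M) ((ωu ^ k : (localSubring M)ˣ) : localSubring M) = 1 := by
    intro k
    have h1 : (Units.map (IsLocalRing.residue (localSubring M)).toMonoidHom (ωu ^ k)) = 1 := by
      rw [map_zpow, hresu, one_zpow]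
    exact congrArg Units.val h1
  -- representatives of cycles
  let S := Equiv.Perm.SameCycle.setoid σ
  let r : X → X := fun x => (Quotient.mk S x).out
  have hr : ∀ x, σ.SameCycle (r x) x := by
    intro x
    have : S.r (r x) x := Quotient.exact (Quotient.out_eq (Quotient.mk S x))
    exact this
  choose i hi using hr
  have hrσ : ∀ x, r (σ x) = r x := by
    intro x
    have : Quotient.mk S (σ x) = Quotient.mk S x := by
      apply Quotient.sound
      show σ.SameCycle (σ x) x
      exact ⟨-1, by simp⟩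
    show (Quotient.mk S (σ x)).out = (Quotient.mk S x).out
    rw [this]
  have hstep : ∀ x, ωu ^ (- i x) = ωu * ωu ^ (- i (σ x)) := by
    intro x
    have h1 : (σ ^ (i (σ x) - i x - 1)) (r x) = r x := by
      have h2 : (σ ^ (i (σ x))) (r x) = σ x := by
        have := hi (σ x)
        rwa [hrσ] at this
      have h3 : (σ ^ (i x + 1)) (r x) = σ x := by
        rw [add_comm, zpow_add, zpow_one, Equiv.Perm.mul_apply, hi]
      have h4 : (σ ^ (i x + 1)) (r x) = (σ ^ (i (σ x))) (r x) := by rw [h2, h3]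
      have h5 : i (σ x) - i x - 1 = - (i x + 1) + i (σ x) := by ring
      rw [h5, zpow_add, Equiv.Perm.mul_apply, ← h4, ← Equiv.Perm.mul_apply, ← zpow_add]
      simp
    obtain ⟨m, hm⟩ := hfree _ _ h1
    have h2 : - i x = 1 + (- i (σ x)) + (p : ℤ) * m := by linarith
    rw [h2, zpow_add, zpow_add, zpow_mul, zpow_natCast, hωpow]
    simp
  let D : Matrix X X (localSubring M) :=
    Matrix.diagonal fun x => ((ωu ^ (- i x) : (localSubring M)ˣ) : localSubring M)
  let Di : Matrix X X (localSubring M) :=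
    Matrix.diagonal fun x => ((ωu ^ (i x) : (localSubring M)ˣ) : localSubring M)
  have hDDi : D * Di = 1 := by
    rw [Matrix.diagonal_mul_diagonal, ← Matrix.diagonal_one]
    congr 1
    funext x
    rw [← Units.val_mul, zpow_neg, inv_mul_cancel, Units.val_one]
  have hD1 : (IsLocalRing.residue (localSubring M)).mapMatrix D = 1 := by
    apply Matrix.ext
    intro u v
    simp only [RingHom.mapMatrix_apply, Matrix.map_apply, D, Matrix.diagonal_apply]
    by_cases h : u = v
    · subst h
      simp only [if_true, Matrix.one_apply_eq]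
      exact hreszp _
    · simp [h]
  have hDO : D * Oh = ωh • (Oh * D) := by
    apply Matrix.ext
    intro u v
    rw [Matrix.smul_apply, Matrix.diagonal_mul, Matrix.mul_diagonal]
    by_cases h : σ u = v
    · subst h
      rw [hstep u, Units.val_mul, smul_eq_mul]
      ring
    · have h0 : Oh u v = 0 := Subtype.ext (hO u v h)
      simp [h0]
  have hωh0 : ωh ≠ 0 := fun h => hω0 (congrArg Subtype.val h)
  have hωh1 : ωh ≠ 1 := fun h => hω1 (congrArg Subtype.val h)
  have hfin := trace_mul_eq_zero Oh D Di Eh ωh hωh0 hωh1 hDDi hD1 hDO hEh hOEh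
  have h3 : (Oh * Eh).trace.1 = (O * E).trace := by
    rw [← hEh_map, ← hOh_map]
    have h4 : (Oh.map φ) * (Eh.map φ) = (Oh * Eh).map φ := Matrix.map_mul.symm
    rw [h4]
    show φ _ = _
    simp only [Matrix.trace, Matrix.diag_apply, Matrix.map_apply, map_sum]
  rw [← h3, hfin]
  rfl

end Monomial

section Central

variable {G : Type u} [Group G] [Fintype G] {p : ℕ} {M : Ideal AlgInt}

/-- Central elements act by scalars. -/
theorem irr_central_mul {χ : G → ℂ} (hχ : IsIrrCharacter G χ) {z : G}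
    (hz : z ∈ Subgroup.center G) (y : G) : χ 1 * χ (z * y) = χ z * χ y := by
  apply irr_mul_of_const hχ z y (χ (z * y))
  intro b
  have h1 : z * (b * y * b⁻¹) = b * (z * y) * b⁻¹ := by
    have h2 : z * b = b * z := (Subgroup.mem_center_iff.mp hz b).symm
    calc z * (b * y * b⁻¹) = (z * b) * y * b⁻¹ := by group
      _ = b * (z * y) * b⁻¹ := by rw [h2]; group
  rw [h1]
  exact isClassFunction_of_isCharacter (IsIrrCharacter.isCharacter hχ) (z * y) b

/-- The multiplier of a central element. -/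
noncomputable def lam (χ : G → ℂ) (z : G) : ℂ := χ z / χ 1

theorem lam_mul_apply {χ : G → ℂ} (hχ : IsIrrCharacter G χ) {z : G}
    (hz : z ∈ Subgroup.center G) (y : G) : χ (z * y) = lam χ z * χ y := by
  have h1 := irr_central_mul hχ hz y
  have h0 : χ 1 ≠ 0 := irr_one_ne_zero' hχ
  unfold lam
  field_simp
  linear_combination h1

theorem lam_mul_lam_inv {χ : G → ℂ} (hχ : IsIrrCharacter G χ) {z : G}
    (hz : z ∈ Subgroup.center G) : lam χ z * lam χ z⁻¹ = 1 := by
  have h1 := lam_mul_apply hχ hz z⁻¹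
  have h0 : χ 1 ≠ 0 := irr_one_ne_zero' hχ
  rw [mul_inv_cancel] at h1
  have h2 : lam χ z * lam χ z⁻¹ = lam χ z * χ z⁻¹ / χ 1 := by
    unfold lam
    ring
  rw [h2, ← h1, div_self h0]

theorem lam_pow {χ : G → ℂ} (hχ : IsIrrCharacter G χ) {z : G}
    (hz : z ∈ Subgroup.center G) (n : ℕ) : lam χ (z ^ n) = lam χ z ^ n := by
  have h0 : χ 1 ≠ 0 := irr_one_ne_zero' hχ
  induction n with
  | zero =>
    simp only [pow_zero]
    unfold lam
    rw [div_self h0]
  | succ n ih =>
    rw [pow_succ', pow_succ', ← ih]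
    unfold lam
    rw [lam_mul_apply hχ hz]
    unfold lam
    ring

theorem isIntegral_lam {χ : G → ℂ} (hχ : IsIrrCharacter G χ) {z : G}
    (hz : z ∈ Subgroup.center G) : IsIntegral ℤ (lam χ z) := by
  have h0 : χ 1 ≠ 0 := irr_one_ne_zero' hχ
  have h1 := lam_pow hχ hz (orderOf z)
  rw [pow_orderOf_eq_one] at h1
  have h2 : lam χ 1 = 1 := by
    unfold lam
    rw [div_self h0]
  rw [h2] at h1
  apply IsIntegral.of_pow (orderOf_pos z)
  rw [← h1]
  exact isIntegral_one

theorem sum_inv_mul_char {χ : G → ℂ} (hχ : IsIrrCharacter G χ) (x : G) :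
    ∑ z : G, χ z⁻¹ * χ (z * x) = (Nat.card G : ℂ) / χ 1 * χ x := by
  classical
  have h0 : χ 1 ≠ 0 := irr_one_ne_zero' hχ
  have hG : (Nat.card G : ℂ) ≠ 0 := natCard_ne_zero'
  have h1 := Cfsg.Agent.Lib.BlkNormalSub.sum_mul_char_eq_omega_mul hχ (ec_isClassFunction hχ) x
  rw [omega_ec hχ hχ, if_pos rfl, one_mul] at h1
  rw [← h1, Finset.mul_sum]
  refine Finset.sum_congr rfl fun z _ => ?_
  unfold ec
  field_simp

/-- The sum of characters over a transversal of a central subgroup. -/
theorem sum_out_mul (D : Subgroup G) (hDZ : D ≤ Subgroup.center G) {χ : G → ℂ}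
    (hχ : IsIrrCharacter G χ) [Fintype (G ⧸ D)] (a b : G) :
    ∑ v : G ⧸ D, χ (Quotient.out v * a) * χ (b * (Quotient.out v)⁻¹) =
      (D.index : ℂ) / χ 1 * χ (b * a) := by
  classical
  have h0 : χ 1 ≠ 0 := irr_one_ne_zero' hχ
  have hc := isClassFunction_of_isCharacter (IsIrrCharacter.isCharacter hχ)
  letI : Fintype D := Fintype.ofFinite _
  have hD0 : (Nat.card D : ℂ) ≠ 0 := by
    exact_mod_cast (Nat.card_pos (α := D)).ne'
  have h1 := Cfsg.Agent.Lib.CharIto.sum_eq_card_mul_sum_quotient D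
    (fun g : G => χ (g * a) * χ (b * g⁻¹)) (by
      intro x z hz
      have hzc := hDZ hz
      have hzi : z⁻¹ ∈ Subgroup.center G := inv_mem hzc
      have e1 : x * z * a = z * (x * a) := by
        calc x * z * a = (z * x) * a := by rw [(Subgroup.mem_center_iff.mp hzc x)]
          _ = z * (x * a) := by group
      have e2 : b * (x * z)⁻¹ = z⁻¹ * (b * x⁻¹) := by
        rw [mul_inv_rev]
        calc b * (z⁻¹ * x⁻¹) = (b * z⁻¹) * x⁻¹ := by group
          _ = (z⁻¹ * b) * x⁻¹ := by rw [(Subgroup.mem_center_iff.mp hzi b)]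
          _ = z⁻¹ * (b * x⁻¹) := by group
      show χ (x * z * a) * χ (b * (x * z)⁻¹) = χ (x * a) * χ (b * x⁻¹)
      rw [e1, e2, lam_mul_apply hχ hzc, lam_mul_apply hχ hzi]
      have := lam_mul_lam_inv hχ hzc
      calc lam χ z * χ (x * a) * (lam χ z⁻¹ * χ (b * x⁻¹))
          = (lam χ z * lam χ z⁻¹) * (χ (x * a) * χ (b * x⁻¹)) := by ring
        _ = _ := by rw [this, one_mul])
  -- the full sum over the group
  have h2 : ∑ g : G, χ (g * a) * χ (b * g⁻¹) = (Nat.card G : ℂ) / χ 1 * χ (b * a) := by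
    have h3 := sum_inv_mul_char hχ (b * a)
    have e : ∀ g : G, χ (g * a) * χ (b * g⁻¹) = χ ((a⁻¹ * g⁻¹)⁻¹) * χ ((a⁻¹ * g⁻¹) * (b * a)) := by
      intro g
      have e1 : (a⁻¹ * g⁻¹)⁻¹ = g * a := by group
      have e2 : (a⁻¹ * g⁻¹) * (b * a) = a⁻¹ * (g⁻¹ * b) * a⁻¹⁻¹ := by group
      have e3 : b * g⁻¹ = b * (g⁻¹ * b) * b⁻¹ := by group
      rw [e1, e2, hc, e3, hc]
    rw [Finset.sum_congr rfl fun g _ => e g]
    rw [← h3]
    exact Fintype.sum_equiv ((Equiv.inv G).trans (Equiv.mulLeft a⁻¹)) _ _ fun g => by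
      simp
  rw [h2] at h1
  have hcard : (Nat.card D : ℂ) * (D.index : ℂ) = (Nat.card G : ℂ) := by
    exact_mod_cast Subgroup.card_mul_index D
  apply mul_left_cancel₀ hD0
  rw [← h1, ← hcard]
  ring

/-- Vanishing of characters of relative defect zero. -/
theorem irr_eq_zero_of_free (hM : IsPModular p M) (D : Subgroup G) (hDZ : D ≤ Subgroup.center G)
    {χ : G → ℂ} (hχ : IsIrrCharacter G χ) (hdeg : p ^ (D.index.factorization p) ∣ charDegree χ)
    (g : G) (hg : ∀ k : ℤ, g ^ k ∈ D → (p : ℤ) ∣ k) : χ g⁻¹ = 0 := by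
  classical
  have hPr := hM.2.1.isPrime
  have h0 := irr_one_ne_zero' hχ
  letI : Fintype (G ⧸ D) := Fintype.ofFinite _
  have hc := isClassFunction_of_isCharacter (IsIrrCharacter.isCharacter hχ)
  have hχ1 : χ 1 = (charDegree χ : ℂ) :=
    Cfsg.Agent.Lib.CharKernel.one_eq_charDegree (IsIrrCharacter.isCharacter hχ)
  have hidx : D.index ≠ 0 := Subgroup.index_ne_zero_of_finite
  have hidxC : (D.index : ℂ) ≠ 0 := by exact_mod_cast hidx
  obtain ⟨κ, hκdef⟩ : ∃ κ : ℂ, κ = χ 1 / (D.index : ℂ) := ⟨_, rfl⟩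
  have hκ : MemLocalRing M κ := by
    rw [hκdef, hχ1]
    exact memLocalRing_natCast_div_of_dvd hM hidx hdeg
  let t : G ⧸ D → G := Quotient.out
  let E : Matrix (G ⧸ D) (G ⧸ D) ℂ := Matrix.of fun s u => κ * χ (t u * (t s)⁻¹)
  let σ : Equiv.Perm (G ⧸ D) := MulAction.toPerm g
  obtain ⟨zz, hzz, ht⟩ : ∃ zz : G ⧸ D → G, (∀ s, zz s ∈ D) ∧ ∀ s, t (σ s) = g * t s * zz s := by
    refine ⟨fun s => (g * t s)⁻¹ * t (σ s), ?_, ?_⟩
    · intro s
      show (g * t s)⁻¹ * t (σ s) ∈ D
      rw [← QuotientGroup.eq]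
      have h1 : ((t (σ s) : G) : G ⧸ D) = σ s := QuotientGroup.out_eq' _
      rw [h1]
      have h2 : ((t s : G) : G ⧸ D) = s := QuotientGroup.out_eq' _
      have h3 : ((g * t s : G) : G ⧸ D) = g • ((t s : G) : G ⧸ D) := rfl
      rw [h3, h2]
      rfl
    · intro s
      show t (σ s) = g * t s * ((g * t s)⁻¹ * t (σ s))
      group
  have hzzc : ∀ s, zz s ∈ Subgroup.center G := fun s => hDZ (hzz s)
  let O : Matrix (G ⧸ D) (G ⧸ D) ℂ := Matrix.of fun s u => if σ s = u then lam χ (zz s) else 0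
  have hOmul : ∀ (A : Matrix (G ⧸ D) (G ⧸ D) ℂ) s u, (O * A) s u = lam χ (zz s) * A (σ s) u := by
    intro A s u
    rw [Matrix.mul_apply]
    simp [O, Finset.sum_ite_eq]
  have hmulO : ∀ (A : Matrix (G ⧸ D) (G ⧸ D) ℂ) s v, (A * O) s (σ v) = A s v * lam χ (zz v) := by
    intro A s v
    rw [Matrix.mul_apply, Finset.sum_eq_single v]
    · simp [O]
    · intro b _ hb
      have : σ b ≠ σ v := fun h => hb (σ.injective h)
      simp [O, this]
    · simp
  have hA : ∀ s u, lam χ (zz s) * χ (t u * (t (σ s))⁻¹) = χ (t u * (t s)⁻¹ * g⁻¹) := by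
    intro s u
    have hzi : (zz s)⁻¹ ∈ Subgroup.center G := inv_mem (hzzc s)
    have e : t u * (t (σ s))⁻¹ = (zz s)⁻¹ * (t u * (t s)⁻¹ * g⁻¹) := by
      rw [ht s, mul_inv_rev, mul_inv_rev]
      calc t u * ((zz s)⁻¹ * ((t s)⁻¹ * g⁻¹)) = (t u * (zz s)⁻¹) * ((t s)⁻¹ * g⁻¹) := by group
        _ = ((zz s)⁻¹ * t u) * ((t s)⁻¹ * g⁻¹) := by
            rw [(Subgroup.mem_center_iff.mp hzi (t u))]
        _ = _ := by group
    rw [e, lam_mul_apply hχ hzi, ← mul_assoc, lam_mul_lam_inv hχ (hzzc s), one_mul]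
  have hB : ∀ s v, χ (t v * (t s)⁻¹) * lam χ (zz v) = χ (t (σ v) * (t s)⁻¹ * g⁻¹) := by
    intro s v
    have e : t (σ v) * (t s)⁻¹ * g⁻¹ = g * (zz v * (t v * (t s)⁻¹)) * g⁻¹ := by
      rw [ht v]
      have : t v * zz v = zz v * t v := Subgroup.mem_center_iff.mp (hzzc v) (t v)
      calc g * t v * zz v * (t s)⁻¹ * g⁻¹ = g * (t v * zz v) * (t s)⁻¹ * g⁻¹ := by group
        _ = g * (zz v * t v) * (t s)⁻¹ * g⁻¹ := by rw [this]
        _ = _ := by group
    rw [e, hc, lam_mul_apply hχ (hzzc v), mul_comm]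
  have hE : E * E = E := by
    apply Matrix.ext
    intro s u
    rw [Matrix.mul_apply]
    have h1 : ∀ v, E s v * E v u = κ * κ * (χ (t v * (t s)⁻¹) * χ (t u * (t v)⁻¹)) := by
      intro v
      show κ * χ (t v * (t s)⁻¹) * (κ * χ (t u * (t v)⁻¹)) = _
      ring
    rw [Finset.sum_congr rfl fun v _ => h1 v, ← Finset.mul_sum]
    have h2 := sum_out_mul D hDZ hχ (t s)⁻¹ (t u)
    have h3 : ∑ v : G ⧸ D, χ (t v * (t s)⁻¹) * χ (t u * (t v)⁻¹) =
        (D.index : ℂ) / χ 1 * χ (t u * (t s)⁻¹) := h2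
    rw [h3]
    show κ * κ * _ = κ * χ (t u * (t s)⁻¹)
    rw [hκdef]
    field_simp
  have hOE : O * E = E * O := by
    apply Matrix.ext
    intro s u
    obtain ⟨v, rfl⟩ := σ.surjective u
    rw [hOmul, hmulO]
    show lam χ (zz s) * (κ * χ (t (σ v) * (t (σ s))⁻¹)) = κ * χ (t v * (t s)⁻¹) * lam χ (zz v)
    rw [mul_assoc κ, hB, mul_left_comm, hA]
  have hlocE : ∀ u v, MemLocalRing M (E u v) := fun u v =>
    memLocalRing_mul hκ (memLocalRing_of_isIntegral (isIntegral_irr ⟨χ, hχ⟩ _))
  have hlocO : ∀ u v, MemLocalRing M (O u v) := by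
    intro u v
    show MemLocalRing M (if σ u = v then lam χ (zz u) else 0)
    split_ifs
    · exact memLocalRing_of_isIntegral (isIntegral_lam hχ (hzzc u))
    · exact memLocalRing_of_isIntegral isIntegral_zero
  have hOz : ∀ u v, σ u ≠ v → O u v = 0 := by
    intro u v huv
    show (if σ u = v then lam χ (zz u) else 0) = 0
    rw [if_neg huv]
  have hfree : ∀ x, ∀ k : ℤ, (σ ^ k) x = x → (p : ℤ) ∣ k := by
    intro x k hk
    apply hg
    have h1 : (σ ^ k) x = (g ^ k) • x := by
      have : σ ^ k = MulAction.toPerm (g ^ k) := by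
        show (MulAction.toPermHom G (G ⧸ D) g) ^ k = MulAction.toPermHom G (G ⧸ D) (g ^ k)
        rw [map_zpow]
      rw [this]
      rfl
    rw [h1] at hk
    have h2 : ((t x : G) : G ⧸ D) = x := QuotientGroup.out_eq' _
    have h3 : ((g ^ k * t x : G) : G ⧸ D) = ((t x : G) : G ⧸ D) := by
      have h3' : ((g ^ k * t x : G) : G ⧸ D) = (g ^ k) • ((t x : G) : G ⧸ D) := rfl
      rw [h3', h2]
      exact hk
    rw [eq_comm, QuotientGroup.eq] at h3
    have h4 : (t x)⁻¹ * (g ^ k * t x) ∈ Subgroup.center G := hDZ h3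
    have h5 : (t x)⁻¹ * (g ^ k * t x) = g ^ k := by
      have h6 := Subgroup.mem_center_iff.mp h4 (t x)
      have h7 : t x * ((t x)⁻¹ * (g ^ k * t x)) = g ^ k * t x := by group
      rw [h7] at h6
      exact (mul_right_cancel h6).symm
    rw [h5] at h3
    exact h3
  have htr := monomial_trace_eq_zero hM E O σ hlocE hlocO hE hOE hOz hfree
  have h1 : (O * E).trace = χ 1 * χ g⁻¹ := by
    have h2 : ∀ s, (O * E) s s = κ * χ g⁻¹ := by
      intro s
      rw [hOmul]
      show lam χ (zz s) * (κ * χ (t s * (t (σ s))⁻¹)) = _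
      rw [mul_left_comm, hA]
      simp
    simp only [Matrix.trace, Matrix.diag_apply, h2, Finset.sum_const, Finset.card_univ, nsmul_eq_mul]
    have h3 : Fintype.card (G ⧸ D) = D.index := by
      rw [← Nat.card_eq_fintype_card]
      rfl
    rw [h3, hκdef]
    field_simp
  rw [h1] at htr
  exact (mul_eq_zero.mp htr).resolve_left h0

/-- The orbits are long when the `p`-part is not in `D`. -/
theorem free_of_pPart (hp : p.Prime) (D : Subgroup G) {g x : G} (hx : IsPPart p g x) (hxD : x ∉ D)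
    (k : ℤ) (hk : g ^ k ∈ D) : (p : ℤ) ∣ k := by
  classical
  by_contra hcon
  apply hxD
  obtain ⟨y, rfl, hxy, ⟨a, ha⟩, hy⟩ := hx
  have hk' : (x * y) ^ k.natAbs ∈ D := by
    rcases Int.eq_nat_or_neg k with ⟨n, rfl | rfl⟩
    · simpa using hk
    · simpa using hk
  have hkn : ¬ p ∣ k.natAbs := fun h => hcon (Int.natCast_dvd.mpr h)
  have h1 : x ^ (k.natAbs * orderOf y) ∈ D := by
    have h2 : (x * y) ^ (k.natAbs * orderOf y) = x ^ (k.natAbs * orderOf y) := by
      rw [hxy.mul_pow, mul_comm k.natAbs, pow_mul y, pow_orderOf_eq_one, one_pow, mul_one]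
    rw [← h2, pow_mul]
    exact pow_mem hk' _
  have hcop : Nat.Coprime (k.natAbs * orderOf y) (orderOf x) := by
    rw [ha]
    apply Nat.Coprime.pow_right
    rw [Nat.coprime_comm, Nat.Prime.coprime_iff_not_dvd hp, hp.dvd_mul]
    exact not_or.mpr ⟨hkn, hy⟩
  obtain ⟨m, hm⟩ := exists_pow_eq_self_of_coprime hcop
  rw [← hm]
  exact pow_mem h1 _

/-- Vanishing of characters of relative defect zero. -/
theorem irr_eq_zero_of_pPart (hM : IsPModular p M) (D : Subgroup G) (hDZ : D ≤ Subgroup.center G)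
    {χ : G → ℂ} (hχ : IsIrrCharacter G χ) (hdeg : p ^ (D.index.factorization p) ∣ charDegree χ)
    {g x : G} (hx : IsPPart p g x) (hxD : x ∉ D) : χ g = 0 := by
  have h1 := irr_eq_zero_of_free hM D hDZ hχ hdeg g⁻¹ (by
    intro k hk
    have h2 : g ^ (-k) ∈ D := by
      rw [zpow_neg]
      have : (g⁻¹) ^ k = (g ^ k)⁻¹ := inv_zpow g k
      rwa [this] at hk
    have := free_of_pPart hM.1 D hx hxD (-k) h2
    exact (dvd_neg.mp this))
  simpa using h1

/-- The sum over regular elements. -/
theorem sum_regular_mul_inv (hM : IsPModular p M) (D : Subgroup G) (hDp : IsPGroup p D)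
    (hDZ : D ≤ Subgroup.center G)
    {χ : G → ℂ} (hχ : IsIrrCharacter G χ) (hdeg : p ^ (D.index.factorization p) ∣ charDegree χ) :
    ∑ h ∈ Finset.univ.filter (fun h : G => ¬ p ∣ orderOf h), χ h * χ h⁻¹ = (D.index : ℂ) := by
  classical
  have hp := hM.1
  have h0 := irr_one_ne_zero' hχ
  letI : Fintype D := Fintype.ofFinite _
  have hD0 : (Nat.card D : ℂ) ≠ 0 := by
    exact_mod_cast (Nat.card_pos (α := D)).ne'
  set Reg := Finset.univ.filter (fun h : G => ¬ p ∣ orderOf h) with hReg
  have hall : ∑ g : G, χ g * χ g⁻¹ = (Nat.card G : ℂ) := by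
    have h1 := sum_inv_mul_char hχ 1
    rw [div_mul_cancel₀ _ h0] at h1
    rw [← h1]
    refine Finset.sum_congr rfl fun g _ => ?_
    rw [mul_one, mul_comm]
  have hsum : ∑ q ∈ (Finset.univ : Finset D) ×ˢ Reg, χ q.2 * χ q.2⁻¹ = ∑ g : G, χ g * χ g⁻¹ := by
    refine Finset.sum_of_injOn (fun q : D × G => (q.1 : G) * q.2) ?_ ?_ ?_ ?_
    · rintro ⟨z, h⟩ hq ⟨z', h'⟩ hq' he
      have hz := Finset.mem_product.mp (Finset.mem_coe.mp hq)
      have hz' := Finset.mem_product.mp (Finset.mem_coe.mp hq')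
      have hhr : ¬ p ∣ orderOf h := (Finset.mem_filter.mp hz.2).2
      have hhr' : ¬ p ∣ orderOf h' := (Finset.mem_filter.mp hz'.2).2
      have hpp : ∀ w : D, ∃ k : ℕ, orderOf (w : G) = p ^ k := by
        intro w
        haveI : Fact p.Prime := ⟨hp⟩
        obtain ⟨k, hk⟩ := (IsPGroup.iff_orderOf.mp hDp) w
        exact ⟨k, by rw [Subgroup.orderOf_coe]; exact hk⟩
      have h1 : IsPPart p ((z : G) * h) (z : G) :=
        pPart_of_mul (Subgroup.mem_center_iff.mp (hDZ z.2) h).symm (hpp z) hhr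
      have h2 : IsPPart p ((z' : G) * h') (z' : G) :=
        pPart_of_mul (Subgroup.mem_center_iff.mp (hDZ z'.2) h').symm (hpp z') hhr'
      simp only at he
      rw [he] at h1
      have h3 := pPart_unique hp h1 h2
      have h4 : z = z' := Subtype.ext h3
      subst h4
      have h5 : h = h' := mul_left_cancel he
      rw [h5]
    · intro q _
      exact Finset.mem_coe.mpr (Finset.mem_univ _)
    · intro g _ hg
      obtain ⟨x, hx⟩ := exists_isPPart hp g
      have hxD : x ∉ D := by
        intro hxD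
        apply hg
        obtain ⟨y, rfl, hxy, hxo, hy⟩ := hx
        refine ⟨(⟨x, hxD⟩, y), ?_, rfl⟩
        exact Finset.mem_coe.mpr (Finset.mem_product.mpr ⟨Finset.mem_univ _, Finset.mem_filter.mpr ⟨Finset.mem_univ _, hy⟩⟩)
      rw [irr_eq_zero_of_pPart hM D hDZ hχ hdeg hx hxD, zero_mul]
    · rintro ⟨z, h⟩ _
      have hzc := hDZ z.2
      have hzi : ((z : G))⁻¹ ∈ Subgroup.center G := inv_mem hzc
      have e : ((z : G) * h)⁻¹ = (z : G)⁻¹ * h⁻¹ := by
        rw [mul_inv_rev]
        exact Subgroup.mem_center_iff.mp hzi h⁻¹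
      simp only
      rw [e, lam_mul_apply hχ hzc, lam_mul_apply hχ hzi]
      have := lam_mul_lam_inv hχ hzc
      calc χ h * χ h⁻¹ = 1 * (χ h * χ h⁻¹) := by rw [one_mul]
        _ = (lam χ (z : G) * lam χ ((z : G))⁻¹) * (χ h * χ h⁻¹) := by rw [this]
        _ = _ := by ring
  rw [hall, Finset.sum_product] at hsum
  simp only [Finset.sum_const, Finset.card_univ, nsmul_eq_mul] at hsum
  have hcard : (Nat.card D : ℂ) * (D.index : ℂ) = (Nat.card G : ℂ) := by
    exact_mod_cast Subgroup.card_mul_index D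
  apply mul_left_cancel₀ hD0
  rw [hcard, ← hsum, Nat.card_eq_fintype_card]

/-- There is a regular class with nonzero central character and character value. -/
theorem exists_regular_unit (hM : IsPModular p M) (D : Subgroup G) (hDp : IsPGroup p D)
    (hDZ : D ≤ Subgroup.center G)
    (χ : IrrCharacter G) (hdeg : p ^ (D.index.factorization p) ∣ charDegree (χ : G → ℂ)) :
    ∃ h : G, ¬ MemLocalIdeal M (centralChar (χ : G → ℂ) h) ∧ ¬ MemLocalIdeal M ((χ : G → ℂ) h⁻¹) := by
  classical
  have hPr := hM.2.1.isPrime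
  have hχ := χ.2
  have h0 := irr_one_ne_zero' hχ
  have hc := isClassFunction_of_isCharacter (IsIrrCharacter.isCharacter hχ)
  letI : Fintype (ConjClasses G) := Fintype.ofFinite _
  by_contra hcon
  push Not at hcon
  let F : G → ℂ := fun g => if p ∣ orderOf g then 0 else (χ : G → ℂ) g⁻¹
  have hFc : IsClassFunction G F := by
    intro g h
    have h1 : orderOf (h * g * h⁻¹) = orderOf g := by
      have := orderOf_injective (MulAut.conj h).toMonoidHom (MulAut.conj h).injective g
      simpa using this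
    have h2 : (h * g * h⁻¹)⁻¹ = h * g⁻¹ * h⁻¹ := by group
    show (if p ∣ orderOf (h * g * h⁻¹) then 0 else (χ : G → ℂ) (h * g * h⁻¹)⁻¹) = if p ∣ orderOf g then 0 else (χ : G → ℂ) g⁻¹
    rw [h1, h2, hc]
  have hidx : D.index ≠ 0 := Subgroup.index_ne_zero_of_finite
  have hidxC : (D.index : ℂ) ≠ 0 := by exact_mod_cast hidx
  have homega : omega (χ : G → ℂ) F = (D.index : ℂ) / (χ : G → ℂ) 1 := by
    have h1 := sum_regular_mul_inv hM D hDp hDZ hχ hdeg
    unfold omega
    congr 1
    rw [← h1, Finset.sum_filter]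
    refine Finset.sum_congr rfl fun g _ => ?_
    by_cases hg : p ∣ orderOf g
    · simp [F, hg]
    · simp [F, hg, mul_comm]
  have hmem : MemLocalIdeal M (omega (χ : G → ℂ) F) := by
    rw [omega_eq_sum_classes χ hFc]
    refine memLocalIdeal_sum _ _ fun K _ => ?_
    by_cases hg : p ∣ orderOf (Quotient.out K)
    · simp only [F, hg, if_true, zero_mul]
      exact memLocalIdeal_zero
    · simp only [F, hg, if_false]
      by_cases h2 : MemLocalIdeal M ((χ : G → ℂ) (Quotient.out K)⁻¹)
      · exact memLocalIdeal_mul_right h2 (memLocalRing_of_isIntegral (isIntegral_centralChar χ _))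
      · by_contra h3
        have h4 : MemLocalIdeal M (centralChar (χ : G → ℂ) (Quotient.out K)) := by
          by_contra h5
          exact h2 (hcon _ h5)
        exact h3 (memLocalIdeal_mul_left (memLocalRing_of_isIntegral (isIntegral_irr χ _)) h4)
  rw [homega] at hmem
  apply not_memLocalIdeal_one (M := M)
  have hκ : MemLocalRing M ((χ : G → ℂ) 1 / (D.index : ℂ)) := by
    rw [Cfsg.Agent.Lib.CharKernel.one_eq_charDegree (IsIrrCharacter.isCharacter hχ)]
    exact memLocalRing_natCast_div_of_dvd hM hidx hdeg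
  have := memLocalIdeal_mul_right hmem hκ
  convert this using 1
  field_simp

/-- **Defect of a character of relative defect zero.** -/
theorem isDefectGroup_of_central [hp : Fact p.Prime] (hM : IsPModular p M) (D : Subgroup G) (hDp : IsPGroup p D)
    (hDZ : D ≤ Subgroup.center G) (χ : IrrCharacter G)
    (hdeg : (charDegree (χ : G → ℂ)).factorization p = D.index.factorization p) :
    IsDefectGroup p M (blockOf M (χ : G → ℂ)) D := by
  classical
  have hPr := hM.2.1.isPrime
  have hχ := χ.2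
  have h0 := irr_one_ne_zero' hχ
  have hdegpos : charDegree (χ : G → ℂ) ≠ 0 := by
    intro h
    apply h0
    rw [Cfsg.Agent.Lib.CharKernel.one_eq_charDegree (IsIrrCharacter.isCharacter hχ), h]
    simp
  have hidx : D.index ≠ 0 := Subgroup.index_ne_zero_of_finite
  have hdvd : p ^ (D.index.factorization p) ∣ charDegree (χ : G → ℂ) := by
    rw [← hdeg]
    exact Nat.ordProj_dvd _ _
  obtain ⟨h, hc1, hc2⟩ := exists_regular_unit hM D hDp hDZ χ hdvd
  have hB : IsPBlock M (blockOf M (χ : G → ℂ)) := ⟨χ, rfl⟩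
  have hle1 := Cfsg.Agent.Lib.BlkCount.blockDefect_le_of_centralChar hM hB (mem_blockOf_self χ) hc1
  have hcent : Subgroup.centralizer ({h⁻¹} : Set G) = Subgroup.centralizer ({h} : Set G) := by
    ext y
    rw [Subgroup.mem_centralizer_singleton_iff, Subgroup.mem_centralizer_singleton_iff]
    constructor
    · intro hy
      have : y * h⁻¹ = h⁻¹ * y := hy
      have h3 : h * y = y * h := by
        calc h * y = h * (y * h⁻¹) * h := by group
          _ = h * (h⁻¹ * y) * h := by rw [this]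
          _ = y * h := by group
      exact h3.symm
    · intro hy
      have h3 : h⁻¹ * y = y * h⁻¹ := by
        calc h⁻¹ * y = h⁻¹ * (y * h) * h⁻¹ := by group
          _ = h⁻¹ * (h * y) * h⁻¹ := by rw [hy]
          _ = y * h⁻¹ := by group
      exact h3.symm
  have hindex : ((Nat.card (Subgroup.centralizer ({h} : Set G))).factorization p) ≤ (Nat.card D).factorization p := by
    by_contra hlt
    push Not at hlt
    apply hc2
    set C := Subgroup.centralizer ({h} : Set G) with hC
    have hcint := isIntegral_centralChar χ h⁻¹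
    have hCidx : C.index ≠ 0 := Subgroup.index_ne_zero_of_finite
    have hCidxC : (C.index : ℂ) ≠ 0 := by exact_mod_cast hCidx
    have hval : (χ : G → ℂ) h⁻¹ = centralChar (χ : G → ℂ) h⁻¹ * (((χ : G → ℂ) 1) / (C.index : ℂ)) := by
      unfold centralChar
      rw [hcent]
      field_simp
    rw [hval]
    apply memLocalIdeal_mul_left (memLocalRing_of_isIntegral hcint)
    rw [Cfsg.Agent.Lib.CharKernel.one_eq_charDegree (IsIrrCharacter.isCharacter hχ)]
    apply memLocalIdeal_natCast_div_of_dvd hM hCidx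
    have h3 : C.index.factorization p + 1 ≤ (charDegree (χ : G → ℂ)).factorization p := by
      rw [hdeg]
      have hD0 : Nat.card D ≠ 0 := Nat.card_pos.ne'
      have hC0 : Nat.card C ≠ 0 := Nat.card_pos.ne'
      have hidx0 : D.index ≠ 0 := hidx
      have hDi := Subgroup.card_mul_index D
      have hCi := Subgroup.card_mul_index C
      have h4 : (Nat.card D * D.index).factorization p = (Nat.card G).factorization p := by rw [hDi]
      have h5 : (Nat.card C * C.index).factorization p = (Nat.card G).factorization p := by rw [hCi]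
      rw [Nat.factorization_mul hD0 hidx0, Finsupp.add_apply] at h4
      rw [Nat.factorization_mul hC0 hCidx, Finsupp.add_apply] at h5
      omega
    exact (pow_dvd_pow p h3).trans (Nat.ordProj_dvd _ _)
  obtain ⟨Q, hQ⟩ := BlockDefect.exists_isDefectGroup hM hB
  have hDn : D.Normal := ⟨fun n hn g => by
    have : g * n * g⁻¹ = n := by
      rw [(Subgroup.mem_center_iff.mp (hDZ hn) g), mul_inv_cancel_right]
    rwa [this]⟩
  have hDQ := Cfsg.Agent.Lib.BlkFirst.normal_le_defect hM hDn hDp hB hQ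
  have hcard := BlockDefect.card_isDefectGroup hM hB hQ
  have heq : D = Q := by
    apply Subgroup.eq_of_le_of_card_ge hDQ
    rw [hcard]
    obtain ⟨m, hm⟩ := IsPGroup.iff_card.mp hDp
    rw [hm]
    apply Nat.pow_le_pow_right hp.out.pos
    have h6 : (Nat.card D).factorization p = m := by
      rw [hm, hp.out.factorization_pow]
      simp
    omega
  rw [heq]
  exact hQ

end Central

end Cfsg.Agent.Lib.BlkCentralD
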