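import Mathlib
import Cfsg.Agent.Lib.BlkNormalSub
import Cfsg.Agent.Lib.BlkCount
import Cfsg.Agent.Lib.BlkSylow
import Cfsg.Agent.Lib.CharIto

/-!
# Blocks covering an invariant block

Fong's theorem on blocks covering an invariant block of a normal subgroup: the tools.
-/

set_option autoImplicit false
set_option linter.unusedSectionVars false
set_option linter.unusedVariables false
set_option linter.style.haveILetI false

namespace Cfsg.Agent.Lib.BlkFong

open Cfsg Cfsg.Agent.Lib.CharBasic Cfsg.Agent.Lib.CharInd Cfsg.Agent.Lib.CharIntegrality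
open Cfsg.Agent.Lib.BlockLocal Cfsg.Agent.Lib.BlockIdem Cfsg.Agent.Lib.BlkBasic
open Cfsg.Agent.Lib.CharInduction Cfsg.Agent.Lib.CharClifford Cfsg.Agent.Lib.BlkNormalSub
open Cfsg.Agent.Lib.BrauerPair Cfsg.Agent.Lib.BlkSylow Cfsg.Agent.Lib.BlockDefect
open scoped ComplexConjugate

universe u

variable {G : Type u} [Group G] {p : ℕ} {M : Ideal AlgInt}

theorem card_sup_mul_card_inf [Finite G] (K N : Subgroup G) [N.Normal] :
    Nat.card (K ⊔ N : Subgroup G) * Nat.card (K ⊓ N : Subgroup G) = Nat.card K * Nat.card N := by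
  have h1 : N.relIndex (K ⊔ N) = N.relIndex K := Subgroup.relIndex_sup_right K N
  have h2 := relIndex_mul_card (le_sup_right : N ≤ K ⊔ N)
  have h3 := relIndex_mul_card (inf_le_left : K ⊓ N ≤ K)
  have h4 : (K ⊓ N).relIndex K = N.relIndex K := Subgroup.inf_relIndex_left K N
  rw [h1] at h2
  rw [h4] at h3
  rw [← h2, ← h3]
  ring

variable [Fintype G] {N : Subgroup G} {hN : N.Normal} [Fintype N]

theorem centralChar_conj_twist (θ : IrrCharacter N) (n : N) (y : G) :
    centralChar (θ : N → ℂ) (conjAut N hN y n) = centralChar (conjIrr N hN y θ : N → ℂ) n := by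
  have h1 := centralChar_twist (conjAut N hN y).symm θ n
  have h2 : twist (conjAut N hN y).symm θ = conjIrr N hN y θ := by
    apply Subtype.ext
    funext x
    rfl
  rw [h2] at h1
  rw [h1]
  rfl

theorem centralChar_conj_sub [M.IsPrime] {b : Set (IrrCharacter N)} (hb : IsPBlock M b) (hS : Stable N hN b)
    {θ : IrrCharacter N} (hθ : θ ∈ b) (n : N) (y : G) :
    MemLocalIdeal M (centralChar (θ : N → ℂ) (conjAut N hN y n) - centralChar (θ : N → ℂ) n) := by
  rw [centralChar_conj_twist]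
  have h1 := hS y θ hθ
  obtain ⟨θ₀, rfl⟩ := hb
  have h2 : SameBlock M (conjIrr N hN y θ : N → ℂ) (θ : N → ℂ) :=
    sameBlock_trans (sameBlock_symm h1) hθ
  exact h2 n

/-- The induced central character modulo the ideal. -/
theorem memLocalIdeal_induced_sub [M.IsPrime] {b : Set (IrrCharacter N)} (hb : IsPBlock M b)
    (hS : Stable N hN b) {θ : IrrCharacter N} (hθ : θ ∈ b) (g : N) :
    MemLocalIdeal M (inducedCentralChar N (θ : N → ℂ) (g : G) -
      ((N ⊔ Subgroup.centralizer ({(g : G)} : Set G)).index : ℂ) * centralChar (θ : N → ℂ) g) := by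
  classical
  obtain ⟨C, hC⟩ : ∃ C : Subgroup G, C = Subgroup.centralizer ({(g : G)} : Set G) := ⟨_, rfl⟩
  rw [← hC]
  obtain ⟨T, hT⟩ : ∃ T : Subgroup G, T = N ⊔ C := ⟨_, rfl⟩
  rw [← hT]
  letI : Fintype (G ⧸ T) := Fintype.ofFinite _
  letI : Fintype T := Fintype.ofFinite _
  let c : N → ℂ := centralChar (θ : N → ℂ)
  let u : G → ℂ := fun y => c (conjAut N hN y g)
  haveI := hN
  have hclass : ∀ (m n : N), c (m * n * m⁻¹) = c n := fun m n => by
    show centralChar (θ : N → ℂ) (m * n * m⁻¹) = centralChar (θ : N → ℂ) n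
    rw [centralChar_conj]
  have hu : ∀ x, ∀ z ∈ T, u (x * z) = u x := by
    intro x z hz
    have hz' : z ∈ ((N ⊔ C : Subgroup G) : Set G) := by
      rw [← hT]
      exact hz
    rw [Subgroup.normal_mul N C] at hz'
    obtain ⟨n, hn, w, hw, rfl⟩ := Set.mem_mul.mp hz'
    have hwg : w * (g : G) = (g : G) * w := by
      rw [hC] at hw
      exact (Subgroup.mem_centralizer_singleton_iff.mp hw)
    let m : N := ⟨x * n * x⁻¹, hN.conj_mem n hn x⟩
    have h1 : conjAut N hN (x * (n * w)) g = m * conjAut N hN x g * m⁻¹ := by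
      apply Subtype.ext
      simp only [conjAut_apply, Subgroup.coe_mul, Subgroup.coe_inv, m]
      have h2 : x * (n * w) * (g : G) * (x * (n * w))⁻¹ =
          x * n * (w * (g : G)) * w⁻¹ * n⁻¹ * x⁻¹ := by group
      rw [h2, hwg]
      group
    show c (conjAut N hN (x * (n * w)) g) = c (conjAut N hN x g)
    rw [h1, hclass]
  have hsum1 := Cfsg.Agent.Lib.CharIto.sum_eq_card_mul_sum_quotient T u hu
  have hθ1 := irr_one_ne_zero' θ.2
  let F : G → ℂ := fun z => ext0 N (θ : N → ℂ) z / (θ : N → ℂ) 1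
  obtain ⟨ℓ, hℓ⟩ : ∃ ℓ : ℕ, ℓ = (Subgroup.centralizer ({g} : Set N)).index := ⟨_, rfl⟩
  have hF : ∀ y : G, u y = (ℓ : ℂ) * F (y * g * y⁻¹) := by
    intro y
    have h1 : (y * (g : G) * y⁻¹) = ((conjAut N hN y g : N) : G) := rfl
    show centralChar (θ : N → ℂ) (conjAut N hN y g) = (ℓ : ℂ) * (ext0 N (θ : N → ℂ) (y * g * y⁻¹) / (θ : N → ℂ) 1)
    rw [h1, ext0_coe]
    unfold centralChar
    have h2 := index_centralizer_symm (conjAut N hN y).symm g
    simp only [MulEquiv.symm_symm] at h2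
    rw [h2, ← hℓ]
    ring
  have hsum2 : ∑ y : G, F (y * g * y⁻¹) = (Nat.card C : ℂ) * inducedCentralChar N (θ : N → ℂ) (g : G) := by
    have h1 := sum_conj_eq_card_mul F (g : G)
    rw [← hC] at h1
    have h2 : ∑ x : G, F (x⁻¹ * g * x) = ∑ y : G, F (y * g * y⁻¹) := by
      refine Fintype.sum_equiv (Equiv.inv G) _ _ fun x => ?_
      simp
    rw [h2] at h1
    rw [h1, inducedCentralChar_eq_sum]
    congr 1
    rw [← sum_subgroup_eq_sum' N (fun z : G => (classIndicator (g : G) z : ℂ) * F z) (fun y hy => by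
      simp only [F]
      rw [ext0_of_not_mem N _ hy]
      simp)]
    refine Finset.sum_congr rfl fun h _ => ?_
    simp only [F]
    rw [ext0_coe]
    ring
  -- cardinalities
  have hcard : (Nat.card T : ℂ) = (ℓ : ℂ) * (Nat.card C : ℂ) := by
    have h1 := card_sup_mul_card_inf C N
    have hsupc : C ⊔ N = T := by rw [hT, sup_comm]
    rw [hsupc] at h1
    have hcent : Subgroup.centralizer ({g} : Set N) = C.subgroupOf N := by
      ext y
      rw [Subgroup.mem_subgroupOf, hC, Subgroup.mem_centralizer_singleton_iff,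
        Subgroup.mem_centralizer_singleton_iff]
      constructor
      · intro h
        exact congrArg Subtype.val h
      · intro h
        exact Subtype.ext h
    have h2 := Subgroup.card_mul_index (Subgroup.centralizer ({g} : Set N))
    rw [← hℓ, hcent] at h2
    have h3 : Nat.card (C.subgroupOf N) = Nat.card (C ⊓ N : Subgroup G) := by
      rw [← Subgroup.subgroupOf_map_subtype C N, Subgroup.card_map_of_injective Subtype.val_injective]
    rw [h3] at h2
    have h4 : Nat.card T = ℓ * Nat.card C := by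
      have h5 : 0 < Nat.card (C ⊓ N : Subgroup G) := Nat.card_pos
      apply Nat.eq_of_mul_eq_mul_right h5
      rw [h1, ← h2]
      ring
    rw [h4]
    push_cast
    ring
  have hT0 : (Nat.card T : ℂ) ≠ 0 := by
    exact_mod_cast (Nat.card_pos (α := T)).ne'
  have hind : inducedCentralChar N (θ : N → ℂ) (g : G) = ∑ q : G ⧸ T, u (Quotient.out q) := by
    apply mul_left_cancel₀ hT0
    rw [← hsum1, hcard, Finset.sum_congr rfl fun y _ => hF y, ← Finset.mul_sum, hsum2]
    ring
  have hcardq : Fintype.card (G ⧸ T) = T.index := by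
    rw [← Nat.card_eq_fintype_card]
    rfl
  have hfin : inducedCentralChar N (θ : N → ℂ) (g : G) - (T.index : ℂ) * centralChar (θ : N → ℂ) g =
      ∑ q : G ⧸ T, (u (Quotient.out q) - centralChar (θ : N → ℂ) g) := by
    rw [Finset.sum_sub_distrib, ← hind]
    simp [Finset.card_univ, hcardq]
  rw [hfin]
  refine memLocalIdeal_sum _ _ fun q _ => ?_
  exact centralChar_conj_sub hb hS hθ g _

/-- The characters covering `b`. -/
def Cov (b : Set (IrrCharacter N)) : Set (IrrCharacter G) :=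
  {χ | ∃ θ ∈ b, classInner (fun n : N => (χ : G → ℂ) n) (θ : N → ℂ) ≠ 0}

theorem mem_of_cov {b : Set (IrrCharacter N)} (hS : Stable N hN b) {χ : IrrCharacter G}
    (hχ : χ ∈ Cov b) {ψ : IrrCharacter N}
    (hψ : classInner (fun n : N => (χ : G → ℂ) n) (ψ : N → ℂ) ≠ 0) : ψ ∈ b := by
  obtain ⟨θ, hθ, hc⟩ := hχ
  obtain ⟨y, hy⟩ := exists_conj_of_constituents N hN χ.2 θ.2 ψ.2 hc hψ
  have h1 : ψ = conjIrr N hN y θ := Subtype.ext hy
  rw [h1]
  exact hS y θ hθ

theorem omega_ext0_eq_blkInd {b : Set (IrrCharacter N)} (hS : Stable N hN b) (χ : IrrCharacter G) :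
    omega (χ : G → ℂ) (ext0 N (blockCoeff b)) = blkInd (Cov b) χ := by
  classical
  obtain ⟨ψ, hψ⟩ := exists_constituent (N := N) χ
  rw [omega_ext0_blockCoeff hS χ ψ hψ]
  by_cases hχ : χ ∈ Cov b
  · rw [blkInd_of_mem hχ, blkInd_of_mem (mem_of_cov hS hχ hψ)]
  · have h1 : ψ ∉ b := fun h => hχ ⟨ψ, h, hψ⟩
    rw [blkInd_of_not_mem hχ, blkInd_of_not_mem h1]

theorem blockCoeff_cov {b : Set (IrrCharacter N)} (hS : Stable N hN b) :
    blockCoeff (Cov (G := G) b) = ext0 N (blockCoeff b) := by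
  have hf : IsClassFunction G (ext0 N (blockCoeff b)) := (ginv_blockCoeff hS).ext0
  rw [blockCoeff_eq_invF']
  have h1 : blkInd (Cov (G := G) b) = fun χ : IrrCharacter G => omega (χ : G → ℂ) (ext0 N (blockCoeff b)) := by
    funext χ
    rw [omega_ext0_eq_blkInd hS]
  rw [h1, invF_omega hf]

theorem cov_closed [M.IsPrime] {b : Set (IrrCharacter N)} (hb : IsPBlock M b) (hS : Stable N hN b) :
    BlockClosed M (Cov (G := G) b) := by
  classical
  intro χ hχ χ' h
  by_contra hχ'
  have hf : IsClassFunction G (ext0 N (blockCoeff b)) := (ginv_blockCoeff hS).ext0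
  have hR : ∀ g, MemLocalRing M (ext0 N (blockCoeff b) g) := by
    intro g
    by_cases hg : g ∈ N
    · rw [ext0_of_mem N _ hg]
      exact memLocalRing_blockCoeff hb _
    · rw [ext0_of_not_mem N _ hg]
      exact memLocalRing_zero
  have hZ := mem_Zc_of_classFunction (M := M) hf hR
  have h1 := memLocalIdeal_sub_of_mem_Zc hZ h
  simp only [omega_ext0_eq_blkInd hS] at h1
  rw [blkInd_of_mem hχ, blkInd_of_not_mem hχ', sub_zero] at h1
  exact not_memLocalIdeal_one h1

/-- The coefficient of a union of blocks outside the ideal is seen by one block. -/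
theorem exists_block_coeff [M.IsPrime] {S : Set (IrrCharacter G)} (hS : BlockClosed M S) {g : G}
    (h : ¬ MemLocalIdeal M (blockCoeff S g)) :
    ∃ F : BlockT M G, F.1 ⊆ S ∧ ¬ MemLocalIdeal M (blockCoeff F.1 g) := by
  classical
  by_contra hcon
  push Not at hcon
  apply h
  have h1 : blkInd S = ∑ F : BlockT M G,
      @ite (IrrCharacter G → ℂ) (F.1 ⊆ S) (Classical.propDecidable _) (blkInd F.1) 0 := by
    funext χ
    rw [Finset.sum_apply, Finset.sum_eq_single (⟨blockOf M (χ : G → ℂ), ⟨χ, rfl⟩⟩ : BlockT M G)]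
    · by_cases hχ : χ ∈ S
      · have h2 : blockOf M (χ : G → ℂ) ⊆ S := fun ψ hψ => hS χ hχ ψ hψ
        rw [if_pos h2, blkInd_of_mem hχ, blkInd_of_mem (mem_blockOf_self χ)]
      · have h2 : ¬ blockOf M (χ : G → ℂ) ⊆ S := fun h => hχ (h (mem_blockOf_self χ))
        rw [if_neg h2, blkInd_of_not_mem hχ]
        rfl
    · intro F _ hF
      have h2 : χ ∉ F.1 := by
        intro hχ
        apply hF
        apply Subtype.ext
        rcases eq_or_disjoint_of_isPBlock F.2 (⟨χ, rfl⟩ : IsPBlock M (blockOf M (χ : G → ℂ))) with h | h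
        · exact h
        · exact absurd (mem_blockOf_self χ) (Set.disjoint_left.1 h hχ)
      split_ifs with h3
      · exact blkInd_of_not_mem h2
      · rfl
    · intro h
      exact absurd (Finset.mem_univ _) h
  have h2 : blockCoeff S g = ∑ F : BlockT M G,
      @ite ℂ (F.1 ⊆ S) (Classical.propDecidable _) (blockCoeff F.1 g) 0 := by
    rw [blockCoeff_apply, h1]
    simp only [Finset.sum_apply]
    simp_rw [Finset.sum_mul]
    rw [Finset.sum_comm]
    refine Finset.sum_congr rfl fun F _ => ?_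
    by_cases h3 : F.1 ⊆ S
    · simp only [if_pos h3]
      rw [blockCoeff_apply]
    · simp [if_neg h3]
  rw [h2]
  refine memLocalIdeal_sum _ _ fun F _ => ?_
  split_ifs with h3
  · exact hcon F h3
  · exact memLocalIdeal_zero

/-- Consequences of a central character outside of the ideal. -/
theorem key_of_centralChar (hM : IsPModular p M) {b : Set (IrrCharacter N)} (hb : IsPBlock M b)
    (hS : Stable N hN b) {χ : IrrCharacter G} {θ : IrrCharacter N} (hθ : θ ∈ b)
    (hc : classInner (fun n : N => (χ : G → ℂ) n) (θ : N → ℂ) ≠ 0) (g : N)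
    (h : ¬ MemLocalIdeal M (centralChar (χ : G → ℂ) (g : G))) :
    ¬ p ∣ (N ⊔ Subgroup.centralizer ({(g : G)} : Set G)).index ∧
      (∀ θ' ∈ b, ¬ MemLocalIdeal M (centralChar (θ' : N → ℂ) g)) ∧
      ∀ χ' ∈ Cov (G := G) b, ¬ MemLocalIdeal M (centralChar (χ' : G → ℂ) (g : G)) := by
  classical
  haveI hPr : M.IsPrime := hM.2.1.isPrime
  have h1 := memLocalIdeal_induced_sub hb hS hθ g
  rw [← centralChar_eq_induced_of_constituent hN χ θ hc g] at h1
  have h2 : ¬ MemLocalIdeal M (((N ⊔ Subgroup.centralizer ({(g : G)} : Set G)).index : ℂ) *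
      centralChar (θ : N → ℂ) g) := by
    intro h3
    apply h
    have h4 := memLocalIdeal_add h1 h3
    simpa using h4
  have hcR : ∀ θ' : IrrCharacter N, MemLocalRing M (centralChar (θ' : N → ℂ) g) := fun θ' =>
    memLocalRing_of_isIntegral (isIntegral_centralChar θ' g)
  have h3 : ¬ p ∣ (N ⊔ Subgroup.centralizer ({(g : G)} : Set G)).index := by
    intro h4
    exact h2 (memLocalIdeal_mul_right (memLocalIdeal_natCast_of_dvd hM h4) (hcR θ))
  have h4 : ¬ MemLocalIdeal M (centralChar (θ : N → ℂ) g) := fun h5 =>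
    h2 (memLocalIdeal_mul_left (memLocalRing_natCast _) h5)
  have h5 : ∀ θ' ∈ b, ¬ MemLocalIdeal M (centralChar (θ' : N → ℂ) g) := by
    intro θ' hθ' h6
    apply h4
    obtain ⟨θ₀, rfl⟩ := hb
    have h7 : SameBlock M (θ : N → ℂ) (θ' : N → ℂ) := sameBlock_trans (sameBlock_symm hθ) hθ'
    have h8 := memLocalIdeal_add (h7 g) h6
    simpa using h8
  refine ⟨h3, h5, ?_⟩
  rintro χ' ⟨θ', hθ', hc'⟩ h6
  have h7 := memLocalIdeal_induced_sub hb hS hθ' g
  rw [← centralChar_eq_induced_of_constituent hN χ' θ' hc' g] at h7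
  have h8 := memLocalIdeal_sub h6 h7
  have h9 : centralChar (χ' : G → ℂ) (g : G) - (centralChar (χ' : G → ℂ) (g : G) -
      ((N ⊔ Subgroup.centralizer ({(g : G)} : Set G)).index : ℂ) * centralChar (θ' : N → ℂ) g) =
      ((N ⊔ Subgroup.centralizer ({(g : G)} : Set G)).index : ℂ) * centralChar (θ' : N → ℂ) g := by ring
  rw [h9, memLocalIdeal_mul_iff (memLocalRing_natCast _) (hcR θ')] at h8
  rcases h8 with h8 | h8
  · exact h3 ((memLocalIdeal_natCast_iff hM).mp h8)
  · exact h5 θ' hθ' h8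

/-- Group theory of a Sylow subgroup of `C` and a normal subgroup. -/
theorem sup_inf_facts [Finite G] {P C K : Subgroup G} [K.Normal] (hp : p.Prime) (hPC : P ≤ C)
    (hcard : Nat.card P = p ^ (Nat.card C).factorization p)
    (hT : ¬ p ∣ (K ⊔ C).index) :
    ¬ p ∣ (P ⊔ K).index ∧
      (Nat.card (P ⊓ K : Subgroup G)).factorization p = (Nat.card (C ⊓ K : Subgroup G)).factorization p := by
  have h1 := card_sup_mul_card_inf C K
  have h2 := card_sup_mul_card_inf P K
  have hA := relIndex_mul_card (sup_le_sup_right hPC K : P ⊔ K ≤ C ⊔ K)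
  have hB := relIndex_mul_card (inf_le_inf_right K hPC : P ⊓ K ≤ C ⊓ K)
  have hI := relIndex_mul_card hPC
  have hAB : (P ⊔ K).relIndex (C ⊔ K) * (P ⊓ K).relIndex (C ⊓ K) = P.relIndex C := by
    have h3 : 0 < Nat.card (P ⊔ K : Subgroup G) * Nat.card (P ⊓ K : Subgroup G) :=
      Nat.mul_pos Nat.card_pos Nat.card_pos
    apply Nat.eq_of_mul_eq_mul_right h3
    calc _ = ((P ⊔ K).relIndex (C ⊔ K) * Nat.card (P ⊔ K : Subgroup G)) *
          ((P ⊓ K).relIndex (C ⊓ K) * Nat.card (P ⊓ K : Subgroup G)) := by ring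
      _ = Nat.card C * Nat.card K := by rw [hA, hB, h1]
      _ = P.relIndex C * (Nat.card P * Nat.card K) := by rw [← hI]; ring
      _ = _ := by rw [h2]
  have hIp : ¬ p ∣ P.relIndex C := by
    intro h3
    obtain ⟨r, hr⟩ := h3
    obtain ⟨v, hv⟩ : ∃ v, v = (Nat.card C).factorization p := ⟨_, rfl⟩
    rw [← hv] at hcard
    have h4 : p ^ (v + 1) ∣ Nat.card C := Dvd.intro r (by rw [← hI, hr, hcard]; ring)
    have h5 := (hp.pow_dvd_iff_le_factorization Nat.card_pos.ne').mp h4
    omega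
  have hAp : ¬ p ∣ (P ⊔ K).relIndex (C ⊔ K) := fun h3 => hIp (hAB ▸ h3.mul_right _)
  have hBp : ¬ p ∣ (P ⊓ K).relIndex (C ⊓ K) := fun h3 => hIp (hAB ▸ h3.mul_left _)
  constructor
  · have h3 := Subgroup.relIndex_mul_index (sup_le_sup_right hPC K : P ⊔ K ≤ C ⊔ K)
    rw [← h3, hp.dvd_mul]
    rw [sup_comm] at hT
    exact not_or.mpr ⟨hAp, hT⟩
  · have h3 : ((P ⊓ K).relIndex (C ⊓ K) * Nat.card (P ⊓ K : Subgroup G)).factorization p =
        (Nat.card (C ⊓ K : Subgroup G)).factorization p := by rw [hB]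
    have h0 : (P ⊓ K).relIndex (C ⊓ K) ≠ 0 := by
      intro h4
      rw [h4, zero_mul] at hB
      exact Nat.card_pos.ne' hB.symm
    rw [Nat.factorization_mul h0 Nat.card_pos.ne', Finsupp.add_apply,
      Nat.factorization_eq_zero_of_not_dvd hBp, zero_add] at h3
    exact h3

end Cfsg.Agent.Lib.BlkFong
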