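import Mathlib
import Cfsg.Agent.Lib.BlkFirst
import Cfsg.Agent.Lib.BlkLink

/-!
# Height zero characters: the values `ω_χ(z_ψ)`

`z_ψ` is the `p`-regular part of `conj ψ`, a central element of `R G`.  For `χ, ψ` in a block `B`, the number
`ω_χ(z_ψ)` is a unit of `R` if and only if `ψ` has height zero in `B`.
-/

set_option autoImplicit false
set_option linter.unusedSectionVars false
set_option linter.unusedVariables false
set_option linter.style.haveILetI false

namespace Cfsg.Agent.Lib.BlkHeight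

open Cfsg Cfsg.Agent.Lib.CharBasic Cfsg.Agent.Lib.CharInd Cfsg.Agent.Lib.CharIntegrality
open Cfsg.Agent.Lib.BlockLocal Cfsg.Agent.Lib.BlockIdem Cfsg.Agent.Lib.BlkBasic
open Cfsg.Agent.Lib.BlkOrth Cfsg.Agent.Lib.BlkSylow Cfsg.Agent.Lib.BlkLink
open Cfsg.Agent.Lib.BlkBrauer Cfsg.Agent.Lib.BlkDefect Cfsg.Agent.Lib.BlkFirst
open Cfsg.Agent.Lib.CharKernel Cfsg.Agent.Lib.BlockVal
open scoped ComplexConjugate

universe u

variable {G : Type u} [Group G] [Fintype G] {p : ℕ} {M : Ideal AlgInt}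

/-- Inversion shows that the regular inner product of characters is symmetric. -/
theorem regInner_symm {χ ψ : G → ℂ} (hχ : IsCharacter G χ) (hψ : IsCharacter G ψ) :
    regInner p χ ψ = regInner p ψ χ := by
  classical
  unfold regInner
  refine Fintype.sum_equiv (Equiv.inv G) _ _ fun x => ?_
  simp only [Equiv.inv_apply, orderOf_inv]
  by_cases h : ¬ p ∣ orderOf x
  · rw [if_pos h, if_pos h, ← char_conj_eq_inv hχ, ← char_conj_eq_inv hψ, Complex.conj_conj, mul_comm]
  · rw [if_neg h, if_neg h]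

theorem omega_zReg_symm (χ ψ : IrrCharacter G) :
    (χ : G → ℂ) 1 * omega (χ : G → ℂ) (zReg p (ψ : G → ℂ)) =
      (ψ : G → ℂ) 1 * omega (ψ : G → ℂ) (zReg p (χ : G → ℂ)) := by
  rw [omega_zReg, omega_zReg, regInner_symm (IsIrrCharacter.isCharacter χ.2) (IsIrrCharacter.isCharacter ψ.2)]
  have h1 := irr_one_ne_zero' χ.2
  have h2 := irr_one_ne_zero' ψ.2
  field_simp

theorem zReg_mem_Zc [M.IsPrime] (ψ : IrrCharacter G) :
    (fun χ : IrrCharacter G => omega (χ : G → ℂ) (zReg p (ψ : G → ℂ))) ∈ Zc (G := G) M :=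
  mem_Zc_of_classFunction (zReg_isClassFunction (IsIrrCharacter.isCharacter ψ.2)) (memLocalRing_zReg ψ)

theorem memLocalRing_omega_zReg [M.IsPrime] (χ ψ : IrrCharacter G) :
    MemLocalRing M (omega (χ : G → ℂ) (zReg p (ψ : G → ℂ))) :=
  memLocalRing_of_mem_Zc (zReg_mem_Zc ψ) χ

theorem omega_zReg_sub_of_sameBlock [M.IsPrime] {χ χ' : IrrCharacter G} (ψ : IrrCharacter G)
    (h : SameBlock M (χ : G → ℂ) (χ' : G → ℂ)) :
    MemLocalIdeal M (omega (χ : G → ℂ) (zReg p (ψ : G → ℂ)) - omega (χ' : G → ℂ) (zReg p (ψ : G → ℂ))) :=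
  memLocalIdeal_sub_of_mem_Zc (zReg_mem_Zc ψ) h

/-- If `ω_χ(z_ψ) ≠ 0` then `χ` and `ψ` are in the same block. -/
theorem sameBlock_of_omega_zReg_ne (hM : IsPModular p M) {χ ψ : IrrCharacter G}
    (h : omega (χ : G → ℂ) (zReg p (ψ : G → ℂ)) ≠ 0) : SameBlock M (χ : G → ℂ) (ψ : G → ℂ) := by
  by_contra hcon
  apply h
  rw [omega_zReg]
  have := sum_regular_eq_zero hM χ ψ hcon
  unfold regInner
  rw [this, zero_div]

/-- For each member of a block there is `ψ` in the block such that `ω_χ(z_ψ)` is a unit. -/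
theorem exists_omega_zReg_not_mem (hM : IsPModular p M) {B : Set (IrrCharacter G)} (hB : IsPBlock M B)
    {χ : IrrCharacter G} (hχ : χ ∈ B) :
    ∃ ψ ∈ B, ¬ MemLocalIdeal M (omega (χ : G → ℂ) (zReg p (ψ : G → ℂ))) := by
  classical
  haveI := hM.2.1.isPrime
  by_contra hcon
  push Not at hcon
  obtain ⟨r, hr⟩ := exists_regDecomp (G := G) hM.1
  have hclosed : ∀ χ ∈ B, ∀ ψ, ψ ∉ B → regInner p (ψ : G → ℂ) (χ : G → ℂ) = 0 := by
    intro χ₁ hχ₁ ψ hψ
    apply sum_regular_eq_zero hM ψ χ₁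
    intro hs
    apply hψ
    obtain ⟨χ₀, rfl⟩ := id hB
    exact sameBlock_trans hχ₁ (sameBlock_symm hs)
  have h1 := blockCoeff_eq_sum_zReg hr hM.1 hclosed
  have h2 := omega_blockCoeff B χ
  rw [blkInd_of_mem hχ, h1, omega_sum] at h2
  have h3 : MemLocalIdeal M (∑ ψ : IrrCharacter G, omega (χ : G → ℂ) ((blkInd B ψ * r ψ) • zReg p (ψ : G → ℂ))) := by
    refine memLocalIdeal_sum _ _ fun ψ _ => ?_
    rw [omega_smul]
    by_cases hψ : ψ ∈ B
    · rw [blkInd_of_mem hψ, one_mul]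
      obtain ⟨n, m, hm, hrψ⟩ := hr.1 ψ
      rw [hrψ]
      exact memLocalIdeal_mul_left (memLocalRing_natCast_div_of_not_dvd hM n hm) (hcon ψ hψ)
    · rw [blkInd_of_not_mem hψ, zero_mul, zero_mul]
      exact memLocalIdeal_zero
  rw [h2] at h3
  exact not_memLocalIdeal_one h3

variable [hp : Fact p.Prime]

/-- If `ω_χ(z_ψ)` is a unit, the exponent of `p` in `ψ(1)` is at most that in `χ(1)`. -/
theorem factorization_le_of_omega_zReg (hM : IsPModular p M) {χ ψ : IrrCharacter G}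
    (h : ¬ MemLocalIdeal M (omega (χ : G → ℂ) (zReg p (ψ : G → ℂ)))) :
    (charDegree (ψ : G → ℂ)).factorization p ≤ (charDegree (χ : G → ℂ)).factorization p := by
  haveI := hM.2.1.isPrime
  by_contra hcon
  push Not at hcon
  apply h
  have h1 : omega (χ : G → ℂ) (zReg p (ψ : G → ℂ)) =
      ((charDegree (ψ : G → ℂ) : ℂ) / (charDegree (χ : G → ℂ) : ℂ)) * omega (ψ : G → ℂ) (zReg p (χ : G → ℂ)) := by
    have h2 := omega_zReg_symm (p := p) χ ψ
    rw [one_eq_charDegree (IsIrrCharacter.isCharacter χ.2), one_eq_charDegree (IsIrrCharacter.isCharacter ψ.2)] at h2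
    have h3 : (charDegree (χ : G → ℂ) : ℂ) ≠ 0 := by
      exact_mod_cast charDegree_ne_zero χ.2
    field_simp
    linear_combination h2
  rw [h1]
  refine memLocalIdeal_mul_right ?_ (memLocalRing_omega_zReg ψ χ)
  apply memLocalIdeal_natCast_div_of_dvd hM (charDegree_ne_zero χ.2)
  exact (pow_dvd_pow p hcon).trans (Nat.ordProj_dvd _ _)

/-- `ψ` has height zero when `ω_χ(z_ψ)` is a unit, `χ` in the block of `ψ`. -/
theorem height_zero_of_omega_zReg (hM : IsPModular p M) {B : Set (IrrCharacter G)} (hB : IsPBlock M B)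
    {χ ψ : IrrCharacter G} (hχ : χ ∈ B)
    (h : ¬ MemLocalIdeal M (omega (χ : G → ℂ) (zReg p (ψ : G → ℂ))))  :
    blockHeight p B (ψ : G → ℂ) = 0 := by
  classical
  haveI := hM.2.1.isPrime
  unfold blockHeight
  have hne : ((fun χ : IrrCharacter G => (charDegree (χ : G → ℂ)).factorization p) '' B).Nonempty :=
    ⟨_, χ, hχ, rfl⟩
  have : (charDegree (ψ : G → ℂ)).factorization p ≤
      sInf ((fun χ : IrrCharacter G => (charDegree (χ : G → ℂ)).factorization p) '' B) := by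
    apply le_csInf hne
    rintro _ ⟨θ, hθ, rfl⟩
    apply factorization_le_of_omega_zReg hM
    intro hcon
    apply h
    have h2 := omega_zReg_sub_of_sameBlock (p := p) ψ (Cfsg.Agent.Lib.BlockDefect.sameBlock_of_mem hB hχ hθ)
    have h3 := memLocalIdeal_add h2 hcon
    rwa [sub_add_cancel] at h3
  omega

/-- **Height zero characterized**: `χ₀` of height zero gives units `ω_χ(z_χ₀)` for all `χ` in its block. -/
theorem omega_zReg_not_mem_of_height_zero (hM : IsPModular p M) {B : Set (IrrCharacter G)}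
    (hB : IsPBlock M B) {χ₀ χ : IrrCharacter G} (hχ₀ : χ₀ ∈ B) (h0 : blockHeight p B (χ₀ : G → ℂ) = 0)
    (hχ : χ ∈ B) : ¬ MemLocalIdeal M (omega (χ : G → ℂ) (zReg p (χ₀ : G → ℂ))) := by
  classical
  haveI := hM.2.1.isPrime
  obtain ⟨ψ, hψ, hψ2⟩ := exists_omega_zReg_not_mem hM hB hχ₀
  have h1 := height_zero_of_omega_zReg hM hB hχ₀ hψ2
  -- the same exponents
  have hs : ∀ θ ∈ B, blockHeight p B (θ : G → ℂ) = 0 →
      (charDegree (θ : G → ℂ)).factorization p = sInf ((fun χ : IrrCharacter G => (charDegree (χ : G → ℂ)).factorization p) '' B) := by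
    intro θ hθ h
    unfold blockHeight at h
    have h5 : sInf ((fun χ : IrrCharacter G => (charDegree (χ : G → ℂ)).factorization p) '' B) ≤ (charDegree (θ : G → ℂ)).factorization p :=
      Nat.sInf_le ⟨θ, hθ, rfl⟩
    omega
  have hνeq : (charDegree (ψ : G → ℂ)).factorization p = (charDegree (χ₀ : G → ℂ)).factorization p := by
    rw [hs ψ hψ h1, hs χ₀ hχ₀ h0]
  have h2 : ¬ MemLocalIdeal M (omega (ψ : G → ℂ) (zReg p (χ₀ : G → ℂ))) := by
    intro hcon
    apply hψ2
    have h3 : omega (χ₀ : G → ℂ) (zReg p (ψ : G → ℂ)) =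
        ((charDegree (ψ : G → ℂ) : ℂ) / (charDegree (χ₀ : G → ℂ) : ℂ)) * omega (ψ : G → ℂ) (zReg p (χ₀ : G → ℂ)) := by
      have h4 := omega_zReg_symm (p := p) χ₀ ψ
      rw [one_eq_charDegree (IsIrrCharacter.isCharacter χ₀.2), one_eq_charDegree (IsIrrCharacter.isCharacter ψ.2)] at h4
      have h5 : (charDegree (χ₀ : G → ℂ) : ℂ) ≠ 0 := by
        exact_mod_cast charDegree_ne_zero χ₀.2
      field_simp
      linear_combination h4
    rw [h3]
    refine memLocalIdeal_mul_left ?_ hcon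
    apply memLocalRing_natCast_div_of_dvd hM (charDegree_ne_zero χ₀.2)
    rw [← hνeq]
    exact Nat.ordProj_dvd _ _
  intro hcon
  apply h2
  have h3 := omega_zReg_sub_of_sameBlock (p := p) χ₀ (Cfsg.Agent.Lib.BlockDefect.sameBlock_of_mem hB hψ hχ)
  have h4 := memLocalIdeal_add h3 hcon
  rwa [sub_add_cancel] at h4

end Cfsg.Agent.Lib.BlkHeight
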