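import Mathlib
import Cfsg.Prelude.Def_Blocks
import Cfsg.Agent.Lib.BlockLocal

/-!
# The residue field of the local ring at a maximal ideal of the algebraic integers

`resF M` is the quotient of the subring `localSubring M` of `ℂ` by the local ideal; `res M z` is the
residue class of a complex number (junk value `0` outside the local ring).  Also: the rank of a square
matrix does not change under a homomorphism of fields.
-/

set_option autoImplicit false
set_option linter.unusedSectionVars false
set_option linter.unusedVariables false

namespace Cfsg.Agent.Lib.BlkResidue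

open Cfsg Cfsg.Agent.Lib.BlockLocal

section Local

variable (M : Ideal AlgInt) [hM : M.IsPrime]

/-- The local ideal, as an ideal of the local subring. -/
def localIdeal : Ideal (localSubring M) where
  carrier := {z | MemLocalIdeal M (z : ℂ)}
  add_mem' := fun {a b} ha hb => by
    simpa using memLocalIdeal_add ha hb
  zero_mem' := by simpa using memLocalIdeal_zero
  smul_mem' := fun c {x} hx => by
    simpa using memLocalIdeal_mul_left c.2 hx

theorem mem_localIdeal {z : localSubring M} : z ∈ localIdeal M ↔ MemLocalIdeal M (z : ℂ) := Iff.rfl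

instance localIdeal_isMaximal : (localIdeal M).IsMaximal := by
  refine Ideal.isMaximal_iff.mpr ⟨?_, ?_⟩
  · intro h
    exact not_memLocalIdeal_one (M := M) (by simpa [mem_localIdeal] using h)
  · intro J x hJ hx hxJ
    have h1 : MemLocalRing M ((x : ℂ)⁻¹) := memLocalRing_inv x.2 hx
    have h2 : (⟨(x : ℂ)⁻¹, h1⟩ : localSubring M) * x = 1 := by
      apply Subtype.ext
      have h3 := ne_zero_of_not_memLocalIdeal (M := M) hx
      simp [h3]
    rw [← h2]
    exact J.mul_mem_left _ hxJ

/-- The residue field. -/
abbrev ResF : Type := localSubring M ⧸ localIdeal M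

noncomputable instance : Field (ResF M) := Ideal.Quotient.field _

/-- The residue class of a complex number. -/
noncomputable def res (z : ℂ) : ResF M := by
  classical
  exact if h : MemLocalRing M z then Ideal.Quotient.mk _ ⟨z, h⟩ else 0

variable {M}

theorem res_of_mem {z : ℂ} (h : MemLocalRing M z) : res M z = Ideal.Quotient.mk _ ⟨z, h⟩ := by
  unfold res
  rw [dif_pos h]

theorem res_add {z w : ℂ} (hz : MemLocalRing M z) (hw : MemLocalRing M w) :
    res M (z + w) = res M z + res M w := by
  rw [res_of_mem hz, res_of_mem hw, res_of_mem (memLocalRing_add hz hw), ← map_add]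
  rfl

theorem res_mul {z w : ℂ} (hz : MemLocalRing M z) (hw : MemLocalRing M w) :
    res M (z * w) = res M z * res M w := by
  rw [res_of_mem hz, res_of_mem hw, res_of_mem (memLocalRing_mul hz hw), ← map_mul]
  rfl

theorem res_zero : res M 0 = 0 := by
  rw [res_of_mem memLocalRing_zero]
  exact map_zero (Ideal.Quotient.mk (localIdeal M))

theorem res_one : res M 1 = 1 := by
  rw [res_of_mem memLocalRing_one]
  exact map_one (Ideal.Quotient.mk (localIdeal M))

theorem res_eq_zero_iff {z : ℂ} (h : MemLocalRing M z) : res M z = 0 ↔ MemLocalIdeal M z := by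
  rw [res_of_mem h, Ideal.Quotient.eq_zero_iff_mem]
  rfl

theorem res_eq_zero {z : ℂ} (h : MemLocalIdeal M z) : res M z = 0 :=
  (res_eq_zero_iff (memLocalRing_of_memLocalIdeal h)).mpr h

theorem res_sub {z w : ℂ} (hz : MemLocalRing M z) (hw : MemLocalRing M w) :
    res M (z - w) = res M z - res M w := by
  rw [res_of_mem hz, res_of_mem hw, res_of_mem (memLocalRing_sub hz hw), ← map_sub]
  rfl

theorem res_eq_of_sub {z w : ℂ} (hz : MemLocalRing M z) (hw : MemLocalRing M w)
    (h : MemLocalIdeal M (z - w)) : res M z = res M w := by
  have h1 := res_sub hz hw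
  rw [res_eq_zero h] at h1
  exact (sub_eq_zero.mp h1.symm)

theorem res_sum {ι : Type*} (s : Finset ι) (f : ι → ℂ) (h : ∀ i ∈ s, MemLocalRing M (f i)) :
    res M (∑ i ∈ s, f i) = ∑ i ∈ s, res M (f i) := by
  classical
  induction s using Finset.induction_on with
  | empty => simp [res_zero]
  | insert a s ha ih =>
    rw [Finset.sum_insert ha, Finset.sum_insert ha, res_add (h a (Finset.mem_insert_self _ _))
      (memLocalRing_sum _ _ fun i hi => h i (Finset.mem_insert_of_mem hi)),
      ih fun i hi => h i (Finset.mem_insert_of_mem hi)]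

theorem res_natCast (n : ℕ) : res M (n : ℂ) = (n : ResF M) := by
  induction n with
  | zero => simp [res_zero]
  | succ n ih =>
    push_cast
    rw [res_add (memLocalRing_natCast n) memLocalRing_one, ih, res_one]

end Local

section Rank

variable {K L m : Type*} [Field K] [Field L] [Fintype m] [DecidableEq m]

open Matrix in
/-- The rank of a square matrix is unchanged by a homomorphism of fields. -/
theorem rank_map_field (f : K →+* L) (A : Matrix m m K) : (A.map f).rank = A.rank := by
  classical
  obtain ⟨V, U, e, hV, hU, h⟩ := exists_rank_normal_form A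
  have hV' : IsUnit (V.map f) := by
    have := hV.map (RingHom.mapMatrix f (m := m))
    simpa using this
  have hU' : IsUnit (U.map f) := by
    have := hU.map (RingHom.mapMatrix f (m := m))
    simpa using this
  have h1 : V.map f * A.map f * U.map f =
      ((fromBlocks 1 0 0 0 : Matrix (Fin A.rank ⊕ Fin (Fintype.card m - A.rank))
        (Fin A.rank ⊕ Fin (Fintype.card m - A.rank)) L)).submatrix e e := by
    have h2 := congrArg (fun X : Matrix m m K => X.map f) h
    rw [Matrix.map_mul, Matrix.map_mul] at h2
    rw [h2]
    ext i j
    simp only [Matrix.map_apply, Matrix.submatrix_apply]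
    rcases e i with a | a <;> rcases e j with b | b <;> simp [Matrix.one_apply]
  have h3 : (V.map f * A.map f * U.map f).rank = (A.map f).rank := by
    rw [Matrix.rank_mul_eq_left_of_isUnit_det _ _ ((Matrix.isUnit_iff_isUnit_det _).mp hU'),
      Matrix.rank_mul_eq_right_of_isUnit_det _ _ ((Matrix.isUnit_iff_isUnit_det _).mp hV')]
  rw [← h3, h1, Matrix.rank_submatrix]
  have h4 : (fromBlocks 1 0 0 0 : Matrix (Fin A.rank ⊕ Fin (Fintype.card m - A.rank))
        (Fin A.rank ⊕ Fin (Fintype.card m - A.rank)) L) =
      Matrix.diagonal (Sum.elim (fun _ => 1) (fun _ => 0)) := by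
    ext i j
    rcases i with a | a <;> rcases j with b | b <;> simp [Matrix.one_apply, Matrix.diagonal_apply]
  rw [h4, Matrix.rank_diagonal]
  rw [Fintype.card_congr (β := Fin A.rank)]
  · simp
  · refine ⟨fun x => ?_, fun a => ⟨Sum.inl a, by simp⟩, ?_, ?_⟩
    · obtain ⟨x, hx⟩ := x
      rcases x with a | a
      · exact a
      · simp at hx
    · rintro ⟨x, hx⟩
      rcases x with a | a
      · rfl
      · simp at hx
    · intro a
      rfl

end Rank

end Cfsg.Agent.Lib.BlkResidue
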