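import Mathlib
import Cfsg.Prelude.Def_Blocks
import Cfsg.Agent.Lib.BlkResidue
import Cfsg.Agent.Lib.BlkLink
import Cfsg.Agent.Lib.BlkFirst
import Cfsg.Agent.Lib.BlockOrtho
import Cfsg.Agent.Lib.BlockDefect
import Cfsg.Agent.Lib.BlockQ
import Cfsg.Agent.Lib.BlkDefect
import Cfsg.Agent.Lib.BlkHeight

/-!
# Counting pairs of class elements whose quotient lies in a subgroup; the identity coefficient of a
block idempotent

For a subgroup `S` and `a b : G`, `wCount S a b` counts pairs `(y, z)`, `y ∼ a`, `z ∼ b`, `z y⁻¹ ∈ S`.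
We express it via central characters.  Also the Brauer fact: the coefficient of the identity in a block
idempotent has `p`-value exactly `a - d`.
-/

set_option autoImplicit false
set_option linter.unusedSectionVars false
set_option linter.unusedVariables false
set_option linter.style.haveILetI false
set_option linter.unusedSimpArgs false

namespace Cfsg.Agent.Lib.BlkRobinson

open Cfsg Cfsg.Agent.Lib.CharBasic Cfsg.Agent.Lib.CharInd Cfsg.Agent.Lib.CharIntegrality
open Cfsg.Agent.Lib.BlockLocal Cfsg.Agent.Lib.BlockIdem Cfsg.Agent.Lib.BlkBasic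
open Cfsg.Agent.Lib.BlkLink Cfsg.Agent.Lib.BlkResidue Cfsg.Agent.Lib.BlockOrtho Cfsg.Agent.Lib.BlockVal
open Cfsg.Agent.Lib.BlkOrth Cfsg.Agent.Lib.BlkDefect Cfsg.Agent.Lib.BlockQ
open scoped ComplexConjugate

universe u

variable {G : Type u} [Group G] [Fintype G] {p : ℕ} {M : Ideal AlgInt}

/-- The number of pairs `(y, z)`, `y ∼ a`, `z ∼ b`, `z y⁻¹ ∈ S`. -/
noncomputable def wCount (S : Subgroup G) (a b : G) : ℕ :=
  Nat.card {yz : G × G // IsConj a yz.1 ∧ IsConj b yz.2 ∧ yz.2 * yz.1⁻¹ ∈ S}

/-- index of the centralizer -/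
noncomputable abbrev idx (g : G) : ℕ := (Subgroup.centralizer ({g} : Set G)).index

theorem centralizer_inv (g : G) :
    Subgroup.centralizer ({g⁻¹} : Set G) = Subgroup.centralizer ({g} : Set G) := by
  ext x
  simp only [Subgroup.mem_centralizer_iff, Set.mem_singleton_iff, forall_eq]
  constructor
  · intro h
    have h1 : g * x = g * (x * g⁻¹) * g := by group
    rw [h1, ← h]
    group
  · intro h
    have h1 : g⁻¹ * x = g⁻¹ * (x * g) * g⁻¹ := by group
    rw [h1, ← h]
    group

theorem idx_inv (g : G) : idx g⁻¹ = idx g := by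
  unfold idx
  rw [centralizer_inv]

theorem centralChar_eq_idx (χ : G → ℂ) (g : G) : centralChar χ g = (idx g : ℂ) * χ g / χ 1 := rfl

/-- The integer `(χ_S, 1_S)`. -/
theorem exists_nat_sum (S : Subgroup G) (χ : IrrCharacter G) :
    ∃ m : ℕ, ∑ g : G, @ite ℂ (g ∈ S) (Classical.propDecidable _) ((χ : G → ℂ) g⁻¹) 0 =
      (Nat.card S : ℂ) * m := by
  classical
  letI : Fintype S := Fintype.ofFinite _
  have hχ := IsIrrCharacter.isCharacter χ.2
  obtain ⟨m, hm⟩ := classInner_char_char (isCharacter_restrict S hχ) (isCharacter_one (G := S))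
  refine ⟨m, ?_⟩
  have hS : (Nat.card S : ℂ) ≠ 0 := natCard_ne_zero'
  have h1 : ∑ g : G, @ite ℂ (g ∈ S) (Classical.propDecidable _) ((χ : G → ℂ) g⁻¹) 0 =
      ∑ h : S, (χ : G → ℂ) ((h : G)⁻¹) :=
    Cfsg.Agent.Lib.BlockQ.sum_ite_mem_subgroup S (fun g => (χ : G → ℂ) g⁻¹)
  rw [h1]
  have h2 : ∑ h : S, (χ : G → ℂ) ((h : G)⁻¹) = ∑ h : S, (χ : G → ℂ) (h : G) := by
    refine Fintype.sum_equiv (Equiv.inv S) _ _ fun h => ?_
    simp
  rw [h2]
  unfold classInner at hm
  simp only [map_one, mul_one] at hm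
  rw [← hm]
  field_simp

/-- The multiplicity of the principal character of `S` in `χ`. -/
noncomputable def mS (S : Subgroup G) (χ : IrrCharacter G) : ℕ :=
  Classical.choose (exists_nat_sum S χ)

theorem mS_spec (S : Subgroup G) (χ : IrrCharacter G) :
    ∑ g : G, @ite ℂ (g ∈ S) (Classical.propDecidable _) ((χ : G → ℂ) g⁻¹) 0 =
      (Nat.card S : ℂ) * mS S χ :=
  Classical.choose_spec (exists_nat_sum S χ)

/-- The coefficient function of the product of the class sums. -/
noncomputable def fConv (a b : G) : G → ℂ :=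
  conv (castFun (classIndicator b)) (castFun (classIndicator a⁻¹))

theorem isConj_inv_iff {a y : G} : IsConj a⁻¹ y⁻¹ ↔ IsConj a y := by
  rw [isConj_iff, isConj_iff]
  constructor
  · rintro ⟨c, hc⟩
    refine ⟨c, ?_⟩
    have : (c * a * c⁻¹)⁻¹ = y⁻¹ := by
      rw [← hc]
      group
    exact inv_injective this
  · rintro ⟨c, hc⟩
    refine ⟨c, ?_⟩
    rw [← hc]
    group

theorem wCount_eq_sum (S : Subgroup G) (a b : G) :
    (wCount S a b : ℂ) = ∑ g : G, @ite ℂ (g ∈ S) (Classical.propDecidable _) (fConv a b g) 0 := by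
  classical
  unfold wCount
  rw [Nat.card_eq_fintype_card, Fintype.card_subtype, Finset.card_filter]
  push_cast
  rw [Fintype.sum_prod_type_right]
  unfold fConv conv castFun
  have h0 : ∀ g : G, (@ite ℂ (g ∈ S) (Classical.propDecidable _) (∑ x : G, ((classIndicator b x : ℤ) : ℂ) *
      ((classIndicator a⁻¹ (x⁻¹ * g) : ℤ) : ℂ)) 0) =
      ∑ x : G, @ite ℂ (g ∈ S) (Classical.propDecidable _) (((classIndicator b x : ℤ) : ℂ) *
      ((classIndicator a⁻¹ (x⁻¹ * g) : ℤ) : ℂ)) 0 := by
    intro g
    by_cases hg : g ∈ S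
    · simp only [if_pos hg]
    · simp only [if_neg hg, Finset.sum_const_zero]
  simp_rw [h0]
  conv_rhs => rw [Finset.sum_comm]
  refine Finset.sum_congr rfl fun z _ => ?_
  -- substitute g = z y⁻¹
  refine Fintype.sum_bijective (fun y : G => z * y⁻¹)
    ⟨fun u v h => inv_injective (mul_left_cancel h), fun g => ⟨g⁻¹ * z, by group⟩⟩ _ _ fun y => ?_
  have h2 : z⁻¹ * (z * y⁻¹) = y⁻¹ := by group
  rw [h2]
  unfold classIndicator
  have h4 : IsConj a⁻¹ y⁻¹ ↔ IsConj a y := isConj_inv_iff
  by_cases hP : IsConj a y <;> by_cases hQ : IsConj b z <;> by_cases hR : z * y⁻¹ ∈ S <;>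
    simp only [h4, hP, hQ, hR, true_and, false_and, and_false, and_true, if_true, if_false,
      Int.cast_one, Int.cast_zero, mul_one, mul_zero, zero_mul]

theorem isClassFunction_castFun_indicator (g : G) : IsClassFunction G (castFun (classIndicator g)) :=
  castFun_isClassFunction (classIndicator_mem g)

theorem fConv_isClassFunction (a b : G) : IsClassFunction G (fConv a b) :=
  conv_isClassFunction (isClassFunction_castFun_indicator b) (isClassFunction_castFun_indicator a⁻¹)

theorem omega_fConv (a b : G) (χ : IrrCharacter G) :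
    omega (χ : G → ℂ) (fConv a b) = centralChar (χ : G → ℂ) b * centralChar (χ : G → ℂ) a⁻¹ := by
  unfold fConv
  rw [omega_conv χ.2 (isClassFunction_castFun_indicator b) (isClassFunction_castFun_indicator a⁻¹),
    omega_classIndicator, omega_classIndicator]

/-- **The character formula for `wCount`.** -/
theorem wCount_formula (S : Subgroup G) (a b : G) :
    (wCount S a b : ℂ) = (S.index : ℂ)⁻¹ * ∑ χ : IrrCharacter G,
      (mS S χ : ℂ) * (χ : G → ℂ) 1 * centralChar (χ : G → ℂ) a⁻¹ * centralChar (χ : G → ℂ) b := by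
  classical
  rw [wCount_eq_sum]
  have h1 : ∀ g : G, fConv a b g = ∑ χ : IrrCharacter G, omega (χ : G → ℂ) (fConv a b) *
      ec (χ : G → ℂ) g := by
    intro g
    have := congrFun (invF_omega (fConv_isClassFunction a b)) g
    rw [← this]
    rfl
  have h2 : ∀ g : G, (@ite ℂ (g ∈ S) (Classical.propDecidable _) (fConv a b g) 0) =
      ∑ χ : IrrCharacter G, (centralChar (χ : G → ℂ) b * centralChar (χ : G → ℂ) a⁻¹) *
        ((χ : G → ℂ) 1 / (Nat.card G : ℂ) *
          @ite ℂ (g ∈ S) (Classical.propDecidable _) ((χ : G → ℂ) g⁻¹) 0) := by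
    intro g
    by_cases hg : g ∈ S
    · simp only [if_pos hg]
      rw [h1 g]
      refine Finset.sum_congr rfl fun χ _ => ?_
      rw [omega_fConv]
      unfold ec
      ring
    · simp only [if_neg hg]
      simp
  simp_rw [h2]
  rw [Finset.sum_comm, Finset.mul_sum]
  refine Finset.sum_congr rfl fun χ _ => ?_
  rw [← Finset.mul_sum, ← Finset.mul_sum, mS_spec]
  have h3 : (Nat.card G : ℂ) = (Nat.card S : ℂ) * (S.index : ℂ) := by
    rw [← Nat.cast_mul, S.card_mul_index]
  have h4 : (Nat.card S : ℂ) ≠ 0 := natCard_ne_zero'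
  have h5 : (S.index : ℂ) ≠ 0 := by
    exact_mod_cast Subgroup.index_ne_zero_of_finite
  rw [h3]
  field_simp

theorem char_one_mul_centralChar (χ : IrrCharacter G) (g : G) :
    (χ : G → ℂ) 1 * centralChar (χ : G → ℂ) g = (idx g : ℂ) * (χ : G → ℂ) g := by
  rw [centralChar_eq_idx]
  have h := irr_one_ne_zero' χ.2
  field_simp

/-- Variant with the index of the class of `a`. -/
theorem wCount_formula_left (S : Subgroup G) (a b : G) :
    (wCount S a b : ℂ) = (S.index : ℂ)⁻¹ * (idx a : ℂ) * ∑ χ : IrrCharacter G,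
      (mS S χ : ℂ) * (χ : G → ℂ) a⁻¹ * centralChar (χ : G → ℂ) b := by
  rw [wCount_formula, mul_assoc, Finset.mul_sum (a := (idx a : ℂ))]
  congr 1
  refine Finset.sum_congr rfl fun χ _ => ?_
  have := char_one_mul_centralChar χ a⁻¹
  rw [idx_inv] at this
  calc (mS S χ : ℂ) * (χ : G → ℂ) 1 * centralChar (χ : G → ℂ) a⁻¹ * centralChar (χ : G → ℂ) b
      = (mS S χ : ℂ) * ((χ : G → ℂ) 1 * centralChar (χ : G → ℂ) a⁻¹) * centralChar (χ : G → ℂ) b := by ring
    _ = _ := by rw [this]; ring

/-- Variant with the index of the class of `b`. -/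
theorem wCount_formula_right (S : Subgroup G) (a b : G) :
    (wCount S a b : ℂ) = (S.index : ℂ)⁻¹ * (idx b : ℂ) * ∑ χ : IrrCharacter G,
      (mS S χ : ℂ) * (χ : G → ℂ) b * centralChar (χ : G → ℂ) a⁻¹ := by
  rw [wCount_formula, mul_assoc, Finset.mul_sum (a := (idx b : ℂ))]
  congr 1
  refine Finset.sum_congr rfl fun χ _ => ?_
  have := char_one_mul_centralChar χ b
  calc (mS S χ : ℂ) * (χ : G → ℂ) 1 * centralChar (χ : G → ℂ) a⁻¹ * centralChar (χ : G → ℂ) b
      = (mS S χ : ℂ) * ((χ : G → ℂ) 1 * centralChar (χ : G → ℂ) b) * centralChar (χ : G → ℂ) a⁻¹ := by ring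
    _ = _ := by rw [this]; ring


/-! ### Class sums -/

section Classes

variable [Fintype (ConjClasses G)]

theorem sum_classes_centralChar (B : Set (IrrCharacter G)) (χ : IrrCharacter G) :
    ∑ c : ConjClasses G, blockCoeff B (Quotient.out c) * centralChar (χ : G → ℂ) (Quotient.out c) =
      blkInd B χ := by
  rw [← omega_eq_sum_classes χ (blockCoeff_isClassFunction B), omega_blockCoeff]

theorem isClass_inv {f : G → ℂ} (hf : IsClassFunction G f) : IsClassFunction G (fun g => f g⁻¹) := by
  intro g h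
  simp only
  have h1 : (h * g * h⁻¹)⁻¹ = h * g⁻¹ * h⁻¹ := by group
  rw [h1, hf]

theorem sum_classes_centralChar_inv (B : Set (IrrCharacter G)) (χ : IrrCharacter G) :
    ∑ c : ConjClasses G, blockCoeff B (Quotient.out c)⁻¹ * centralChar (χ : G → ℂ) (Quotient.out c)⁻¹ =
      blkInd B χ := by
  have h1 := omega_eq_sum_classes χ (isClass_inv (blockCoeff_isClassFunction B))
  rw [← omega_blockCoeff B χ]
  have h2 : omega (χ : G → ℂ) (blockCoeff B) =
      ∑ g : G, blockCoeff B g⁻¹ * ((χ : G → ℂ) g⁻¹) / (χ : G → ℂ) 1 := by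
    unfold omega
    rw [Finset.sum_div]
    exact (Fintype.sum_equiv (Equiv.inv G) _ _ fun g => by simp).symm
  rw [h2]
  have hF : IsClassFunction G (fun g => blockCoeff B g⁻¹ * (χ : G → ℂ) g⁻¹ / (χ : G → ℂ) 1) := by
    intro g h
    have h3 := isClass_inv (blockCoeff_isClassFunction B) g h
    have h4 := isClass_inv (isClassFunction_of_isCharacter (IsIrrCharacter.isCharacter χ.2)) g h
    simp only at h3 h4 ⊢
    rw [h3, h4]
  rw [sum_eq_sum_conjClasses _ hF]
  refine Finset.sum_congr rfl fun c _ => ?_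
  rw [centralChar_eq_idx, idx_inv]
  ring

/-- Sum of `e_B(x⁻¹) W(x, b)` over the classes. -/
theorem sum_classes_wCount (S : Subgroup G) (B : Set (IrrCharacter G)) (b : G) :
    ∑ c : ConjClasses G, blockCoeff B (Quotient.out c)⁻¹ * (wCount S (Quotient.out c) b : ℂ) =
      (S.index : ℂ)⁻¹ * ∑ χ : IrrCharacter G, blkInd B χ * ((mS S χ : ℂ) * (χ : G → ℂ) 1 *
        centralChar (χ : G → ℂ) b) := by
  simp_rw [wCount_formula]
  have h1 : ∀ c : ConjClasses G, blockCoeff B (Quotient.out c)⁻¹ * ((S.index : ℂ)⁻¹ *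
      ∑ χ : IrrCharacter G, (mS S χ : ℂ) * (χ : G → ℂ) 1 *
        centralChar (χ : G → ℂ) (Quotient.out c)⁻¹ * centralChar (χ : G → ℂ) b) =
      (S.index : ℂ)⁻¹ * ∑ χ : IrrCharacter G, (blockCoeff B (Quotient.out c)⁻¹ *
        centralChar (χ : G → ℂ) (Quotient.out c)⁻¹) * ((mS S χ : ℂ) * (χ : G → ℂ) 1 *
        centralChar (χ : G → ℂ) b) := by
    intro c
    rw [mul_left_comm, Finset.mul_sum]
    congr 1
    refine Finset.sum_congr rfl fun χ _ => ?_
    ring
  simp_rw [h1]
  rw [← Finset.mul_sum, Finset.sum_comm]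
  congr 1
  refine Finset.sum_congr rfl fun χ _ => ?_
  rw [← Finset.sum_mul, sum_classes_centralChar_inv]

end Classes

/-- The identity coefficient in terms of the subgroup `S`, whose nonidentity elements are singular. -/
theorem blockCoeff_one_eq (hM : IsPModular p M) {B : Set (IrrCharacter G)} (hB : IsPBlock M B)
    (S : Sylow p G) :
    blockCoeff B 1 = ((S : Subgroup G).index : ℂ)⁻¹ * ∑ χ : IrrCharacter G, blkInd B χ *
      ((mS (S : Subgroup G) χ : ℂ) * (χ : G → ℂ) 1) := by
  classical
  haveI : Fact p.Prime := ⟨hM.1⟩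
  have h1 : ∑ g : G, @ite ℂ (g ∈ (S : Subgroup G)) (Classical.propDecidable _) (blockCoeff B g) 0 =
      blockCoeff B 1 := by
    rw [Finset.sum_eq_single (1 : G)]
    · rw [if_pos (one_mem _)]
    · intro g _ hg
      by_cases hgS : g ∈ (S : Subgroup G)
      · rw [if_pos hgS]
        apply blockCoeff_eq_zero hM hB
        have h2 : IsPGroup p (S : Subgroup G) := S.isPGroup'
        obtain ⟨k, hk⟩ := (IsPGroup.iff_orderOf.mp h2) ⟨g, hgS⟩
        rw [Subgroup.orderOf_mk] at hk
        rw [hk]
        cases k with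
        | zero =>
          simp only [pow_zero] at hk
          exact absurd (orderOf_eq_one_iff.mp hk) hg
        | succ k => exact Dvd.intro_left _ (pow_succ p k).symm
      · rw [if_neg hgS]
    · intro h
      exact absurd (Finset.mem_univ _) h
  rw [← h1]
  have h2 : ∀ g : G, @ite ℂ (g ∈ (S : Subgroup G)) (Classical.propDecidable _) (blockCoeff B g) 0 =
      ∑ χ : IrrCharacter G, (blkInd B χ * ((χ : G → ℂ) 1 / (Nat.card G : ℂ))) *
        @ite ℂ (g ∈ (S : Subgroup G)) (Classical.propDecidable _) ((χ : G → ℂ) g⁻¹) 0 := by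
    intro g
    by_cases hg : g ∈ (S : Subgroup G)
    · simp only [if_pos hg]
      rw [blockCoeff_apply]
      refine Finset.sum_congr rfl fun χ _ => ?_
      unfold ec
      ring
    · simp only [if_neg hg, mul_zero, Finset.sum_const_zero]
  simp_rw [h2]
  rw [Finset.sum_comm, Finset.mul_sum]
  refine Finset.sum_congr rfl fun χ _ => ?_
  rw [← Finset.mul_sum, mS_spec]
  have h3 : (Nat.card G : ℂ) = (Nat.card (S : Subgroup G) : ℂ) * ((S : Subgroup G).index : ℂ) := by
    rw [← Nat.cast_mul, (S : Subgroup G).card_mul_index]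
  have h4 : (Nat.card (S : Subgroup G) : ℂ) ≠ 0 := natCard_ne_zero'
  have h5 : ((S : Subgroup G).index : ℂ) ≠ 0 := by
    exact_mod_cast Subgroup.index_ne_zero_of_finite
  rw [h3]
  field_simp

/-! ### Local properties -/

section Local

variable (hM : IsPModular p M)
include hM

theorem memLocalRing_index_inv (S : Sylow p G) :
    MemLocalRing M ((S : Subgroup G).index : ℂ)⁻¹ := by
  haveI : Fact p.Prime := ⟨hM.1⟩
  exact memLocalRing_inv_natCast hM S.not_dvd_index

theorem memLocalRing_pow_div {n k : ℕ} (h : k ≤ n.factorization p) (hn : n ≠ 0) :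
    MemLocalRing M ((n : ℂ) / (p : ℂ) ^ k) := by
  have hp := hM.1
  have h0 : p ^ k ≠ 0 := pow_ne_zero _ hp.ne_zero
  have h1 := memLocalRing_natCast_div_of_dvd hM (n := n) (d := p ^ k) h0 (by
    rw [hp.factorization_pow, Finsupp.single_eq_same]
    exact (pow_dvd_pow p h).trans (Nat.ordProj_dvd _ _))
  simpa using h1

theorem memLocalIdeal_pow_div {n k : ℕ} (h : k < n.factorization p) (hn : n ≠ 0) :
    MemLocalIdeal M ((n : ℂ) / (p : ℂ) ^ k) := by
  haveI := hM.2.1.isPrime
  have hp := hM.1
  obtain ⟨t, rfl⟩ : p ^ (k + 1) ∣ n := (pow_dvd_pow p h).trans (Nat.ordProj_dvd _ _)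
  have h0 : ((p : ℂ) ^ k) ≠ 0 := pow_ne_zero _ (by exact_mod_cast hp.ne_zero)
  have h1 : ((p ^ (k + 1) * t : ℕ) : ℂ) / (p : ℂ) ^ k = ((p * t : ℕ) : ℂ) := by
    push_cast
    field_simp
    ring
  rw [h1]
  exact (memLocalIdeal_natCast_iff hM).mpr (Dvd.intro _ rfl)

theorem dvd_of_memLocalRing_pow_div {n k : ℕ} (h : MemLocalRing M ((n : ℂ) / (p : ℂ) ^ k)) :
    p ^ k ∣ n := by
  haveI := hM.2.1.isPrime
  have hp := hM.1
  by_cases hn : n = 0
  · simp [hn]
  by_contra hcon
  have hlt : n.factorization p < k := by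
    by_contra hk
    exact hcon ((pow_dvd_pow p (not_lt.mp hk)).trans (Nat.ordProj_dvd _ _))
  set e := n.factorization p with he
  set w := n / p ^ e with hw
  have hn' : n = p ^ e * w := (Nat.ordProj_mul_ordCompl_eq_self n p).symm
  have hw' : ¬ p ∣ w := Nat.not_dvd_ordCompl hp hn
  obtain ⟨f, rfl⟩ : ∃ f, k = e + (f + 1) := ⟨k - e - 1, by omega⟩
  have h1 : (p : ℂ) ^ (f + 1) * ((n : ℂ) / (p : ℂ) ^ (e + (f + 1))) = (w : ℂ) := by
    rw [hn']
    have h0 : (p : ℂ) ≠ 0 := by exact_mod_cast hp.ne_zero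
    push_cast
    field_simp
    ring
  have h2 : MemLocalIdeal M ((p : ℂ) ^ (f + 1)) := by
    rw [pow_succ]
    exact memLocalIdeal_mul_left (memLocalRing_pow (memLocalRing_natCast p) f)
      ((memLocalIdeal_natCast_iff hM).mpr dvd_rfl)
  have h3 := memLocalIdeal_mul_right h2 h
  rw [h1] at h3
  exact hw' ((memLocalIdeal_natCast_iff hM).mp h3)

end Local


section WLocal

variable (hM : IsPModular p M)
include hM

theorem memLocalRing_centralChar (χ : IrrCharacter G) (g : G) :
    MemLocalRing M (centralChar (χ : G → ℂ) g) := by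
  haveI := hM.2.1.isPrime
  exact memLocalRing_of_isIntegral (isIntegral_centralChar χ g)

theorem memLocalRing_irr (χ : IrrCharacter G) (g : G) : MemLocalRing M ((χ : G → ℂ) g) := by
  haveI := hM.2.1.isPrime
  exact memLocalRing_of_isIntegral (isIntegral_irr χ g)

theorem wCount_div_mem_right (S : Sylow p G) (a : G) {b : G} {k : ℕ}
    (hk : k ≤ (idx b).factorization p) :
    MemLocalRing M ((wCount (S : Subgroup G) a b : ℂ) / (p : ℂ) ^ k) := by
  haveI := hM.2.1.isPrime
  have h1 : (wCount (S : Subgroup G) a b : ℂ) / (p : ℂ) ^ k =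
      ((S : Subgroup G).index : ℂ)⁻¹ * (((idx b : ℕ) : ℂ) / (p : ℂ) ^ k) * ∑ χ : IrrCharacter G,
      (mS (S : Subgroup G) χ : ℂ) * (χ : G → ℂ) b * centralChar (χ : G → ℂ) a⁻¹ := by
    rw [wCount_formula_right]
    ring
  rw [h1]
  refine memLocalRing_mul (memLocalRing_mul (memLocalRing_index_inv hM S)
    (memLocalRing_pow_div hM hk Subgroup.index_ne_zero_of_finite)) (memLocalRing_sum _ _ fun χ _ => ?_)
  exact memLocalRing_mul (memLocalRing_mul (memLocalRing_natCast _) (memLocalRing_irr hM χ b))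
    (memLocalRing_centralChar hM χ _)

theorem wCount_div_mem_left_ideal (S : Sylow p G) {a : G} (b : G) {k : ℕ}
    (hk : k < (idx a).factorization p) :
    MemLocalIdeal M ((wCount (S : Subgroup G) a b : ℂ) / (p : ℂ) ^ k) := by
  haveI := hM.2.1.isPrime
  have h1 : (wCount (S : Subgroup G) a b : ℂ) / (p : ℂ) ^ k =
      (((idx a : ℕ) : ℂ) / (p : ℂ) ^ k) * (((S : Subgroup G).index : ℂ)⁻¹ * ∑ χ : IrrCharacter G,
      (mS (S : Subgroup G) χ : ℂ) * (χ : G → ℂ) a⁻¹ * centralChar (χ : G → ℂ) b) := by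
    rw [wCount_formula_left]
    ring
  rw [h1]
  refine memLocalIdeal_mul_right (memLocalIdeal_pow_div hM hk Subgroup.index_ne_zero_of_finite)
    (memLocalRing_mul (memLocalRing_index_inv hM S) (memLocalRing_sum _ _ fun χ _ => ?_))
  exact memLocalRing_mul (memLocalRing_mul (memLocalRing_natCast _) (memLocalRing_irr hM χ _))
    (memLocalRing_centralChar hM χ _)

theorem sameBlock_of_mem_block {B : Set (IrrCharacter G)} (hB : IsPBlock M B) {χ ψ : IrrCharacter G}
    (hχ : χ ∈ B) (hψ : ψ ∈ B) (g : G) :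
    MemLocalIdeal M (centralChar (χ : G → ℂ) g - centralChar (ψ : G → ℂ) g) := by
  haveI := hM.2.1.isPrime
  exact Cfsg.Agent.Lib.BlockDefect.sameBlock_of_mem hB hχ hψ g

theorem memLocalRing_deg_div_pow {χ : IrrCharacter G} {k : ℕ}
    (hk : k ≤ (charDegree (χ : G → ℂ)).factorization p) :
    MemLocalRing M ((χ : G → ℂ) 1 / (p : ℂ) ^ k) := by
  rw [Cfsg.Agent.Lib.CharKernel.one_eq_charDegree (IsIrrCharacter.isCharacter χ.2)]
  exact memLocalRing_pow_div hM hk (Cfsg.Agent.Lib.CharKernel.charDegree_ne_zero χ.2)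

theorem memLocalIdeal_centralChar_of_val {χ : IrrCharacter G} {g : G}
    (h : (charDegree (χ : G → ℂ)).factorization p < (idx g).factorization p) :
    MemLocalIdeal M (centralChar (χ : G → ℂ) g) := by
  haveI := hM.2.1.isPrime
  have hd := Cfsg.Agent.Lib.CharKernel.charDegree_ne_zero χ.2
  set d := charDegree (χ : G → ℂ) with hdd
  set e := d.factorization p with he
  set w := d / p ^ e with hw
  have hd' : d = p ^ e * w := (Nat.ordProj_mul_ordCompl_eq_self d p).symm
  have hw' : ¬ p ∣ w := Nat.not_dvd_ordCompl hM.1 hd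
  have hw0 : (w : ℂ) ≠ 0 := by
    have : w ≠ 0 := fun h => hw' (h ▸ dvd_zero p)
    exact_mod_cast this
  have hp0 : (p : ℂ) ^ e ≠ 0 := pow_ne_zero _ (by exact_mod_cast hM.1.ne_zero)
  have h1 : centralChar (χ : G → ℂ) g = (((idx g : ℕ) : ℂ) / (p : ℂ) ^ e) *
      ((w : ℂ)⁻¹ * (χ : G → ℂ) g) := by
    rw [centralChar_eq_idx, Cfsg.Agent.Lib.CharKernel.one_eq_charDegree (IsIrrCharacter.isCharacter χ.2),
      ← hdd, hd']
    push_cast
    field_simp
  rw [h1]
  exact memLocalIdeal_mul_right (memLocalIdeal_pow_div hM h Subgroup.index_ne_zero_of_finite)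
    (memLocalRing_mul (memLocalRing_inv_natCast hM hw') (memLocalRing_irr hM χ g))

/-- The Brauer fact: the identity coefficient of a block idempotent has valuation `minExp`. -/
theorem blockCoeff_one_unit {B : Set (IrrCharacter G)} (hB : IsPBlock M B) :
    MemLocalRing M (blockCoeff B 1 / (p : ℂ) ^ minExp p B) ∧
      ¬ MemLocalIdeal M (blockCoeff B 1 / (p : ℂ) ^ minExp p B) := by
  classical
  haveI := hM.2.1.isPrime
  haveI : Fact p.Prime := ⟨hM.1⟩
  have hp := hM.1
  set N : ℂ := (p : ℂ) ^ minExp p B with hN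
  have hN0 : N ≠ 0 := pow_ne_zero _ (by exact_mod_cast hp.ne_zero)
  obtain ⟨r, hr⟩ := exists_regDecomp (G := G) hp
  have hA : ∀ χ ∈ B, ∀ ψ, ψ ∉ B → regInner p (ψ : G → ℂ) (χ : G → ℂ) = 0 := by
    intro χ hχ ψ hψ
    apply sum_regular_eq_zero hM
    intro hs
    obtain ⟨χ₀, rfl⟩ := id hB
    exact hψ (sameBlock_trans hχ (sameBlock_symm hs))
  have hE := blockCoeff_eq_sum_zReg hr hp hA
  set X : IrrCharacter G → ℂ := fun χ => blkInd B χ * r χ * ((χ : G → ℂ) 1 / N) with hX
  have hXmem : ∀ χ, MemLocalRing M (X χ) := by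
    intro χ
    by_cases hχ : χ ∈ B
    · simp only [hX, blkInd_of_mem hχ, one_mul]
      refine memLocalRing_mul ?_ (memLocalRing_deg_div_pow hM (minExp_le hχ))
      obtain ⟨n, m, hm, h⟩ := hr.1 χ
      rw [h, div_eq_mul_inv]
      exact memLocalRing_mul (memLocalRing_natCast n) (memLocalRing_inv_natCast hM hm)
    · simp only [hX, blkInd_of_not_mem hχ, zero_mul]
      exact memLocalRing_zero
  have h1reg : ¬ p ∣ orderOf (1 : G) := by
    rw [orderOf_one]
    exact fun h => hp.one_lt.ne' (Nat.dvd_one.mp h)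
  have hone : blockCoeff B 1 / N = ∑ χ, X χ := by
    rw [hE, Finset.sum_apply, Finset.sum_div]
    refine Finset.sum_congr rfl fun χ _ => ?_
    simp only [Pi.smul_apply, smul_eq_mul, hX]
    unfold zReg
    rw [if_pos h1reg, char_conj_eq_inv (IsIrrCharacter.isCharacter χ.2), inv_one]
    ring
  refine ⟨by rw [hone]; exact memLocalRing_sum _ _ fun χ _ => hXmem χ, ?_⟩
  rw [hone]
  intro hI
  obtain ⟨g, hg⟩ := Cfsg.Agent.Lib.BlockDefect.exists_isDefectClass hM hB
  have hgreg := regular_of_isDefectClass hM hB hg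
  have hval : (idx g).factorization p = minExp p B := (sInf_eq_factorization_index hM hB hg).symm
  -- the unit
  set u := idx g / p ^ minExp p B with hu
  have hidx0 : idx g ≠ 0 := Subgroup.index_ne_zero_of_finite
  have hidx : idx g = p ^ minExp p B * u := by
    have := Nat.ordProj_mul_ordCompl_eq_self (idx g) p
    rw [hval] at this
    exact this.symm
  have hu' : ¬ p ∣ u := by
    have := Nat.not_dvd_ordCompl hp hidx0
    rwa [hval] at this
  have hgE : (u : ℂ) * blockCoeff B g = ∑ χ, X χ * centralChar (χ : G → ℂ) g⁻¹ := by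
    rw [hE, Finset.sum_apply, Finset.mul_sum]
    refine Finset.sum_congr rfl fun χ _ => ?_
    simp only [Pi.smul_apply, smul_eq_mul, hX]
    unfold zReg
    rw [if_pos hgreg, char_conj_eq_inv (IsIrrCharacter.isCharacter χ.2)]
    have h3 := char_one_mul_centralChar χ g⁻¹
    rw [idx_inv] at h3
    have h4 : (χ : G → ℂ) 1 / N * centralChar (χ : G → ℂ) g⁻¹ = (u : ℂ) * (χ : G → ℂ) g⁻¹ := by
      have h5 : (χ : G → ℂ) 1 * centralChar (χ : G → ℂ) g⁻¹ / N = (u : ℂ) * (χ : G → ℂ) g⁻¹ := by
        rw [h3, hidx]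
        push_cast
        field_simp
        rw [hN]
        ring
      rw [← h5]
      ring
    calc (u : ℂ) * (blkInd B χ * r χ * (χ : G → ℂ) g⁻¹)
        = blkInd B χ * r χ * ((u : ℂ) * (χ : G → ℂ) g⁻¹) := by ring
      _ = _ := by rw [← h4]; ring
  obtain ⟨χ₀, hχ₀⟩ := isPBlock_nonempty hB
  set lam := centralChar (χ₀ : G → ℂ) g⁻¹ with hlam
  have hdiff : (u : ℂ) * blockCoeff B g - lam * ∑ χ, X χ = ∑ χ, X χ * (centralChar (χ : G → ℂ) g⁻¹ - lam) := by
    rw [hgE, Finset.mul_sum, ← Finset.sum_sub_distrib]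
    refine Finset.sum_congr rfl fun χ _ => ?_
    ring
  have hdiffI : MemLocalIdeal M ((u : ℂ) * blockCoeff B g - lam * ∑ χ, X χ) := by
    rw [hdiff]
    refine memLocalIdeal_sum _ _ fun χ _ => ?_
    by_cases hχ : χ ∈ B
    · exact memLocalIdeal_mul_left (hXmem χ) (sameBlock_of_mem_block hM hB hχ hχ₀ _)
    · simp only [hX, blkInd_of_not_mem hχ, zero_mul]
      exact memLocalIdeal_zero
  have h6 : MemLocalIdeal M ((u : ℂ) * blockCoeff B g) := by
    have h7 := memLocalIdeal_mul_left (memLocalRing_centralChar hM χ₀ g⁻¹) hI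
    have h8 := memLocalIdeal_add hdiffI h7
    rwa [sub_add_cancel] at h8
  have h9 := (memLocalIdeal_mul_iff (memLocalRing_natCast u) hg.1).mp h6
  rcases h9 with h9 | h9
  · exact not_memLocalIdeal_natCast hM hu' h9
  · exact hg.2.1 h9

end WLocal


/-! ### Good elements -/

section Good

/-- `g` is regular and `D` is a Sylow subgroup of its centralizer. -/
def IsGood (p : ℕ) (D : Subgroup G) (g : G) : Prop :=
  ¬ p ∣ orderOf g ∧ D ≤ Subgroup.centralizer ({g} : Set G) ∧
    Nat.card D = p ^ (Nat.card (Subgroup.centralizer ({g} : Set G))).factorization p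

theorem IsGood.inv {D : Subgroup G} {g : G} (h : IsGood p D g) : IsGood p D g⁻¹ := by
  unfold IsGood
  rw [orderOf_inv, centralizer_inv]
  exact h

theorem isGood_inv_iff {D : Subgroup G} {g : G} : IsGood p D g⁻¹ ↔ IsGood p D g :=
  ⟨fun h => by simpa using h.inv, IsGood.inv⟩

theorem IsGood.conj {D : Subgroup G} [hn : D.Normal] {g : G} (h : IsGood p D g) (t : G) :
    IsGood p D (t * g * t⁻¹) := by
  obtain ⟨h1, h2, h3⟩ := h
  refine ⟨?_, ?_, ?_⟩
  · have : orderOf (t * g * t⁻¹) = orderOf g := (MulAut.conj t).orderOf_eq g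
    rwa [this]
  · rw [Cfsg.Agent.Lib.BlockDefect.centralizer_conj]
    intro d hd
    refine ⟨t⁻¹ * d * t, h2 ?_, ?_⟩
    · have := hn.conj_mem d hd t⁻¹
      simpa using this
    · simp [mul_assoc]
  · rw [Cfsg.Agent.Lib.BlockDefect.card_centralizer_conj]
    exact h3

theorem card_eq_pow_factorization {D : Subgroup G} (hp : p.Prime) (hD : IsPGroup p D) :
    Nat.card D = p ^ (Nat.card D).factorization p := by
  haveI : Fact p.Prime := ⟨hp⟩
  obtain ⟨n, hn⟩ := hD.exists_card_eq
  rw [hn, hp.factorization_pow, Finsupp.single_eq_same]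

theorem factorization_eq_add (p : ℕ) (g : G) : (Nat.card G).factorization p =
    (Nat.card (Subgroup.centralizer ({g} : Set G))).factorization p + (idx g).factorization p := by
  rw [← Finsupp.add_apply, ← Nat.factorization_mul Nat.card_pos.ne' Subgroup.index_ne_zero_of_finite,
    Subgroup.card_mul_index]

theorem IsGood.val_eq {D : Subgroup G} {g : G} (hp : p.Prime) (h : IsGood p D g) :
    (idx g).factorization p = (Nat.card G).factorization p - (Nat.card D).factorization p := by
  have h1 := factorization_eq_add p g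
  have h2 : (Nat.card D).factorization p = (Nat.card (Subgroup.centralizer ({g} : Set G))).factorization p := by
    rw [h.2.2, hp.factorization_pow, Finsupp.single_eq_same]
  omega

theorem factorization_subgroup_le (p : ℕ) (D : Subgroup G) :
    (Nat.card D).factorization p ≤ (Nat.card G).factorization p :=
  (Nat.factorization_le_iff_dvd Nat.card_pos.ne' Nat.card_pos.ne').mpr (Subgroup.card_subgroup_dvd_card D) p

/-- Elements with unit coefficient in a block idempotent with normal defect group. -/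
theorem good_or_lt (hM : IsPModular p M) {B : Set (IrrCharacter G)} (hB : IsPBlock M B)
    {D : Subgroup G} [hn : D.Normal] (hDp : IsPGroup p D) (hD : IsDefectGroup p M B D) {g : G}
    (hg : ¬ MemLocalIdeal M (blockCoeff B g)) :
    IsGood p D g ∨ (Nat.card G).factorization p - (Nat.card D).factorization p <
      (idx g).factorization p := by
  classical
  haveI := hM.2.1.isPrime
  haveI : Fact p.Prime := ⟨hM.1⟩
  by_contra hcon
  push Not at hcon
  obtain ⟨h1, h2⟩ := hcon
  apply h1
  obtain ⟨P⟩ : Nonempty (Sylow p (Subgroup.centralizer ({g} : Set G))) := inferInstance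
  set U : Subgroup G := (P : Subgroup (Subgroup.centralizer ({g} : Set G))).map
    (Subgroup.centralizer ({g} : Set G)).subtype with hU
  have hUp : IsPGroup p U := P.isPGroup'.map _
  have hUle : U ≤ Subgroup.centralizer ({g} : Set G) := Subgroup.map_subtype_le _
  have hUc : Nat.card U = p ^ (Nat.card (Subgroup.centralizer ({g} : Set G))).factorization p := by
    rw [hU, Subgroup.card_map_of_injective Subtype.val_injective]
    exact Sylow.card_eq_multiplicity P
  obtain ⟨t, ht⟩ := Cfsg.Agent.Lib.BlockDefect.IsDefectGroup.sylow_conj hM hB hD hg U hUp hUle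
  have hUD : U ≤ D := by
    intro u hu
    have h3 : t * u * t⁻¹ ∈ D := ht ⟨u, hu, rfl⟩
    have h4 := hn.conj_mem _ h3 t⁻¹
    simpa [mul_assoc] using h4
  have hcardD := card_eq_pow_factorization hM.1 hDp
  have h5 : Nat.card U ∣ Nat.card D := Subgroup.card_dvd_of_le hUD
  rw [hUc, hcardD] at h5
  have h6 := (Nat.pow_dvd_pow_iff_le_right hM.1.one_lt).mp h5
  have h7 := factorization_eq_add p g
  have h8 := factorization_subgroup_le p D
  have h9 : (Nat.card (Subgroup.centralizer ({g} : Set G))).factorization p = (Nat.card D).factorization p := by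
    omega
  have hUeq : U = D := by
    apply Subgroup.eq_of_le_of_card_ge hUD
    rw [hUc, hcardD, h9]
  refine ⟨fun hs => hg ?_, hUeq ▸ hUle, ?_⟩
  · rw [blockCoeff_eq_zero hM hB hs]
    exact memLocalIdeal_zero
  · rw [← hUeq]
    exact hUc

theorem minExp_eq (hM : IsPModular p M) {B : Set (IrrCharacter G)} (hB : IsPBlock M B)
    {D : Subgroup G} (hD : IsDefectGroup p M B D) :
    minExp p B = (Nat.card G).factorization p - (Nat.card D).factorization p := by
  haveI := hM.2.1.isPrime
  haveI : Fact p.Prime := ⟨hM.1⟩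
  have h1 := Cfsg.Agent.Lib.BlockDefect.card_isDefectGroup hM hB hD
  have h2 : (Nat.card D).factorization p = blockDefect p B := by
    rw [h1, hM.1.factorization_pow, Finsupp.single_eq_same]
  have h3 := card_factorization_eq (p := p) hB
  omega

/-- Characters outside the blocks with defect group `D` have central characters in the ideal on classes
of small index. -/
theorem centralChar_mem_of_not_block (hM : IsPModular p M) {D : Subgroup G} [hn : D.Normal]
    (hDp : IsPGroup p D) {χ : IrrCharacter G}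
    (hχ : ∀ B : Set (IrrCharacter G), IsPBlock M B → IsDefectGroup p M B D → χ ∉ B) {g : G}
    (hg : (Nat.card G).factorization p - (Nat.card D).factorization p ≤ (idx g).factorization p) :
    MemLocalIdeal M (centralChar (χ : G → ℂ) g) := by
  classical
  haveI := hM.2.1.isPrime
  haveI : Fact p.Prime := ⟨hM.1⟩
  have hB₁ : IsPBlock M (blockOf M (χ : G → ℂ)) := ⟨χ, rfl⟩
  obtain ⟨D₁, hD₁⟩ := Cfsg.Agent.Lib.BlockDefect.exists_isDefectGroup hM hB₁
  have hle : D ≤ D₁ := Cfsg.Agent.Lib.BlkFirst.normal_le_defect hM hn hDp hB₁ hD₁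
  have hne : D ≠ D₁ := by
    rintro rfl
    exact hχ _ hB₁ hD₁ (mem_blockOf_self χ)
  have hc₁ := Cfsg.Agent.Lib.BlockDefect.card_isDefectGroup hM hB₁ hD₁
  have hcD := card_eq_pow_factorization hM.1 hDp
  have hdvd : Nat.card D ∣ Nat.card D₁ := Subgroup.card_dvd_of_le hle
  rw [hc₁, hcD] at hdvd
  have hd1 := (Nat.pow_dvd_pow_iff_le_right hM.1.one_lt).mp hdvd
  have hd2 : (Nat.card D).factorization p ≠ blockDefect p (blockOf M (χ : G → ℂ)) := by
    intro h
    apply hne
    apply Subgroup.eq_of_le_of_card_ge hle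
    rw [hc₁, ← h, ← hcD]
  have h3 := card_factorization_eq (p := p) hB₁
  have h8 := factorization_subgroup_le p D
  obtain ⟨χ₁, hχ₁, hm⟩ := exists_minExp (p := p) hB₁
  have h4 : (charDegree (χ₁ : G → ℂ)).factorization p < (idx g).factorization p := by
    rw [hm]
    omega
  have h5 := memLocalIdeal_centralChar_of_val hM h4
  have h6 := sameBlock_of_mem_block hM hB₁ (mem_blockOf_self χ) hχ₁ g
  have h7 := memLocalIdeal_add h6 h5
  rwa [sub_add_cancel] at h7

theorem res_sum_classes [M.IsPrime] {ι : Type*} [Fintype ι] [Fintype (ConjClasses G)]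
    (K : ι → ConjClasses G) (hK : Function.Injective K) (f : ConjClasses G → ℂ)
    (hf : ∀ c, MemLocalRing M (f c)) (hg : ∀ c, c ∉ Set.range K → MemLocalIdeal M (f c)) :
    res M (∑ c, f c) = ∑ i, res M (f (K i)) := by
  classical
  rw [res_sum _ _ (fun c _ => hf c)]
  rw [← Finset.sum_image (s := Finset.univ) (g := K) (f := fun c => res M (f c)) hK.injOn]
  symm
  apply Finset.sum_subset (Finset.subset_univ _)
  intro c _ hc
  apply res_eq_zero
  apply hg
  rintro ⟨i, rfl⟩
  exact hc (Finset.mem_image_of_mem _ (Finset.mem_univ _))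

end Good


section Main

open Matrix

theorem charP_resF (hM : IsPModular p M) [M.IsPrime] : CharP (ResF M) p := by
  refine ⟨fun n => ?_⟩
  rw [← res_natCast, res_eq_zero_iff (memLocalRing_natCast n), memLocalIdeal_natCast_iff hM]

/-- **Robinson-type rank formula.** -/
theorem main_rank (hM : IsPModular p M) (D : Subgroup G) [hn : D.Normal] (hDp : IsPGroup p D)
    (S : Sylow p G) {ι : Type*} [Fintype ι] [DecidableEq ι] (K : ι → ConjClasses G)
    (hKinj : Function.Injective K) (hK : ∀ g : G, (∃ i, K i = ConjClasses.mk g) ↔ IsGood p D g)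
    [Fact p.Prime] :
    Nat.card {B : Set (IrrCharacter G) // IsPBlock M B ∧ IsDefectGroup p M B D} =
      (Matrix.of fun i j : ι => ((wCount (S : Subgroup G) (Quotient.out (K i)) (Quotient.out (K j)) /
        p ^ ((Nat.card G).factorization p - (Nat.card D).factorization p) : ℕ) : ZMod p)).rank := by
  classical
  haveI hMp : M.IsPrime := hM.2.1.isPrime
  have hp := hM.1
  letI : Fintype (ConjClasses G) := Fintype.ofFinite _
  set k := (Nat.card G).factorization p - (Nat.card D).factorization p with hk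
  set T := {B : Set (IrrCharacter G) // IsPBlock M B ∧ IsDefectGroup p M B D} with hT
  letI : Fintype T := Fintype.ofFinite _
  set x : ι → G := fun i => Quotient.out (K i) with hx
  have hxmk : ∀ i, ConjClasses.mk (x i) = K i := fun i => Quotient.out_eq (K i)
  have hgood : ∀ i, IsGood p D (x i) := fun i => (hK _).mp ⟨i, (hxmk i).symm⟩
  have hval : ∀ i, (idx (x i)).factorization p = k := fun i => (hgood i).val_eq hp
  have hmin : ∀ B : T, minExp p B.1 = k := fun B => minExp_eq hM B.2.1 B.2.2
  have hch : ∀ B : T, ∃ χ ∈ B.1, (charDegree (χ : G → ℂ)).factorization p = k := by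
    intro B
    obtain ⟨χ, h1, h2⟩ := exists_minExp (p := p) B.2.1
    exact ⟨χ, h1, h2.trans (hmin B)⟩
  choose chB hchB hchBd using hch
  set N : ℂ := (p : ℂ) ^ k with hN
  have hN0 : N ≠ 0 := pow_ne_zero _ (by exact_mod_cast hp.ne_zero)
  set lam : T → ι → ℂ := fun B j => centralChar (chB B : G → ℂ) (x j) with hlam
  have hlamloc : ∀ B j, MemLocalRing M (lam B j) := fun B j => memLocalRing_centralChar hM _ _
  set w : ι → ι → ℂ := fun i j => (wCount (S : Subgroup G) (x i) (x j) : ℂ) / N with hw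
  have hwloc : ∀ i j, MemLocalRing M (w i j) := fun i j =>
    wCount_div_mem_right hM S _ (hval j).ge
  have hnat : ∀ i j, ((wCount (S : Subgroup G) (x i) (x j) / p ^ k : ℕ) : ℂ) = w i j := by
    intro i j
    have h1 := dvd_of_memLocalRing_pow_div hM (hwloc i j)
    rw [Nat.cast_div h1 (by exact_mod_cast pow_ne_zero _ hp.ne_zero)]
    simp [hw, hN]
  -- the congruence
  have hcong : ∀ (χ : IrrCharacter G) (j : ι),
      MemLocalIdeal M (centralChar (χ : G → ℂ) (x j) - ∑ B : T, blkInd B.1 χ * lam B j) := by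
    intro χ j
    by_cases h : ∃ B₀ : T, χ ∈ B₀.1
    · obtain ⟨B₀, hB₀⟩ := h
      have h1 : ∑ B : T, blkInd B.1 χ * lam B j = lam B₀ j := by
        rw [Finset.sum_eq_single B₀]
        · rw [blkInd_of_mem hB₀, one_mul]
        · intro B _ hne
          have h2 : χ ∉ B.1 := by
            intro h3
            rcases eq_or_disjoint_of_isPBlock B.2.1 B₀.2.1 with h4 | h4
            · exact hne (Subtype.ext h4)
            · exact Set.disjoint_left.mp h4 h3 hB₀
          rw [blkInd_of_not_mem h2, zero_mul]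
        · intro h
          exact absurd (Finset.mem_univ _) h
      rw [h1]
      exact sameBlock_of_mem_block hM B₀.2.1 hB₀ (hchB B₀) _
    · have h1 : ∑ B : T, blkInd B.1 χ * lam B j = 0 := by
        refine Finset.sum_eq_zero fun B _ => ?_
        have h2 : χ ∉ B.1 := fun h3 => h ⟨B, h3⟩
        rw [blkInd_of_not_mem h2, zero_mul]
      rw [h1, sub_zero]
      refine centralChar_mem_of_not_block hM hDp (fun B hB hD hχ => h ⟨⟨B, hB, hD⟩, hχ⟩) (hval j).ge
  -- the unit factors
  set h : ℂ := ((S : Subgroup G).index : ℂ)⁻¹ with hh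
  have hhloc : MemLocalRing M h := memLocalRing_index_inv hM S
  -- upper bound data
  set v : ι → T → ℂ := fun i B => h * (((idx (x i) : ℕ) : ℂ) / N) * ∑ χ : IrrCharacter G,
    blkInd B.1 χ * ((mS (S : Subgroup G) χ : ℂ) * (χ : G → ℂ) (x i)⁻¹) with hv
  have hvloc : ∀ i B, MemLocalRing M (v i B) := by
    intro i B
    refine memLocalRing_mul (memLocalRing_mul hhloc
      (memLocalRing_pow_div hM (hval i).ge Subgroup.index_ne_zero_of_finite))
      (memLocalRing_sum _ _ fun χ _ => memLocalRing_mul ?_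
        (memLocalRing_mul (memLocalRing_natCast _) (memLocalRing_irr hM χ _)))
    by_cases hχ : χ ∈ B.1
    · rw [blkInd_of_mem hχ]; exact memLocalRing_one
    · rw [blkInd_of_not_mem hχ]; exact memLocalRing_zero
  have hE3 : ∀ i j, res M (w i j) = ∑ B : T, res M (v i B) * res M (lam B j) := by
    intro i j
    have h1 : w i j - ∑ B : T, v i B * lam B j = h * (((idx (x i) : ℕ) : ℂ) / N) *
        ∑ χ : IrrCharacter G, (mS (S : Subgroup G) χ : ℂ) * (χ : G → ℂ) (x i)⁻¹ *
          (centralChar (χ : G → ℂ) (x j) - ∑ B : T, blkInd B.1 χ * lam B j) := by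
      simp only [hw, hv]
      rw [wCount_formula_left]
      have e1 : ∑ B : T, h * (((idx (x i) : ℕ) : ℂ) / N) * (∑ χ : IrrCharacter G,
            blkInd B.1 χ * ((mS (S : Subgroup G) χ : ℂ) * (χ : G → ℂ) (x i)⁻¹)) * lam B j =
          h * (((idx (x i) : ℕ) : ℂ) / N) * ∑ χ : IrrCharacter G,
            (mS (S : Subgroup G) χ : ℂ) * (χ : G → ℂ) (x i)⁻¹ * ∑ B : T, blkInd B.1 χ * lam B j := by
        rw [Finset.mul_sum]
        simp_rw [Finset.mul_sum]
        rw [Finset.sum_comm]
        refine Finset.sum_congr rfl fun χ _ => ?_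
        simp_rw [Finset.sum_mul]
        refine Finset.sum_congr rfl fun B _ => ?_
        ring
      rw [e1]
      simp_rw [mul_sub]
      rw [Finset.sum_sub_distrib, mul_sub]
      congr 1
      rw [hh]
      ring
    have h2 : MemLocalIdeal M (w i j - ∑ B : T, v i B * lam B j) := by
      rw [h1]
      refine memLocalIdeal_mul_left (memLocalRing_mul hhloc
        (memLocalRing_pow_div hM (hval i).ge Subgroup.index_ne_zero_of_finite))
        (memLocalIdeal_sum _ _ fun χ _ => memLocalIdeal_mul_left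
          (memLocalRing_mul (memLocalRing_natCast _) (memLocalRing_irr hM χ _)) (hcong χ j))
    have h3 := res_eq_of_sub (hwloc i j)
      (memLocalRing_sum _ _ fun B _ => memLocalRing_mul (hvloc i B) (hlamloc B j)) h2
    rw [h3, res_sum _ _ fun B _ => memLocalRing_mul (hvloc i B) (hlamloc B j)]
    exact Finset.sum_congr rfl fun B _ => res_mul (hvloc i B) (hlamloc B j)
  have hcoefloc : ∀ (B : T) (g : G), MemLocalRing M (blockCoeff B.1 g) :=
    fun B g => memLocalRing_blockCoeff B.2.1 g
  -- `Λ E = 1`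
  have hE1 : ∀ B B' : T, ∑ j, res M (lam B j) * res M (blockCoeff B'.1 (x j)) =
      if B = B' then 1 else 0 := by
    intro B B'
    have h1 := res_sum_classes (M := M) K hKinj
      (fun c => blockCoeff B'.1 (Quotient.out c) * centralChar (chB B : G → ℂ) (Quotient.out c))
      (fun c => memLocalRing_mul (hcoefloc B' _) (memLocalRing_centralChar hM _ _)) (by
        intro c hc
        by_cases h2 : MemLocalIdeal M (blockCoeff B'.1 (Quotient.out c))
        · exact memLocalIdeal_mul_right h2 (memLocalRing_centralChar hM _ _)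
        · rcases good_or_lt hM B'.2.1 hDp B'.2.2 h2 with h3 | h3
          · exfalso
            obtain ⟨i, hi⟩ := (hK _).mpr h3
            apply hc
            refine ⟨i, ?_⟩
            rw [hi]
            exact Quotient.out_eq c
          · refine memLocalIdeal_mul_left (hcoefloc B' _) ?_
            apply memLocalIdeal_centralChar_of_val hM
            rw [hchBd]
            exact h3)
    rw [sum_classes_centralChar] at h1
    have h2 : res M (blkInd B'.1 (chB B)) = if B = B' then 1 else 0 := by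
      by_cases h3 : B = B'
      · subst h3
        rw [blkInd_of_mem (hchB B), if_pos rfl, res_one]
      · have h4 : chB B ∉ B'.1 := by
          intro h5
          rcases eq_or_disjoint_of_isPBlock B.2.1 B'.2.1 with h4 | h4
          · exact h3 (Subtype.ext h4)
          · exact Set.disjoint_left.mp h4 (hchB B) h5
        rw [blkInd_of_not_mem h4, if_neg h3, res_zero]
    rw [← h2, h1]
    refine Finset.sum_congr rfl fun j _ => ?_
    rw [res_mul (hcoefloc B' _) (memLocalRing_centralChar hM _ _), mul_comm]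
  -- `κ`
  set κ : T → ℂ := fun B => blockCoeff B.1 1 / N with hκ
  have hκu : ∀ B : T, MemLocalRing M (κ B) ∧ ¬ MemLocalIdeal M (κ B) := by
    intro B
    have := blockCoeff_one_unit hM B.2.1
    rwa [hmin B] at this
  have hE2 : ∀ (B : T) (j : ι), ∑ i, res M (blockCoeff B.1 (x i)⁻¹) * res M (w i j) =
      res M (κ B) * res M (lam B j) := by
    intro B j
    have h1 := res_sum_classes (M := M) K hKinj
      (fun c => blockCoeff B.1 (Quotient.out c)⁻¹ * ((wCount (S : Subgroup G) (Quotient.out c) (x j) : ℂ) / N))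
      (fun c => memLocalRing_mul (hcoefloc B _) (wCount_div_mem_right hM S _ (hval j).ge)) (by
        intro c hc
        by_cases h2 : MemLocalIdeal M (blockCoeff B.1 (Quotient.out c)⁻¹)
        · exact memLocalIdeal_mul_right h2 (wCount_div_mem_right hM S _ (hval j).ge)
        · rcases good_or_lt hM B.2.1 hDp B.2.2 h2 with h3 | h3
          · exfalso
            obtain ⟨i, hi⟩ := (hK _).mpr (isGood_inv_iff.mp h3)
            apply hc
            refine ⟨i, ?_⟩
            rw [hi]
            exact Quotient.out_eq c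
          · refine memLocalIdeal_mul_left (hcoefloc B _) ?_
            rw [idx_inv] at h3
            exact wCount_div_mem_left_ideal hM S _ h3)
    have h2 : ∑ c : ConjClasses G, blockCoeff B.1 (Quotient.out c)⁻¹ *
        ((wCount (S : Subgroup G) (Quotient.out c) (x j) : ℂ) / N) =
        h * ∑ χ : IrrCharacter G, blkInd B.1 χ * ((mS (S : Subgroup G) χ : ℂ) * ((χ : G → ℂ) 1 / N) *
          centralChar (χ : G → ℂ) (x j)) := by
      have h3 := sum_classes_wCount (S : Subgroup G) B.1 (x j)
      have h4 : ∑ c : ConjClasses G, blockCoeff B.1 (Quotient.out c)⁻¹ *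
        ((wCount (S : Subgroup G) (Quotient.out c) (x j) : ℂ) / N) =
        (∑ c : ConjClasses G, blockCoeff B.1 (Quotient.out c)⁻¹ *
        (wCount (S : Subgroup G) (Quotient.out c) (x j) : ℂ)) / N := by
        rw [Finset.sum_div]
        refine Finset.sum_congr rfl fun c _ => ?_
        ring
      rw [h4, h3, mul_div_assoc, Finset.sum_div]
      congr 1
      refine Finset.sum_congr rfl fun χ _ => ?_
      ring
    have h3 : κ B = h * ∑ χ : IrrCharacter G, blkInd B.1 χ * ((mS (S : Subgroup G) χ : ℂ) * ((χ : G → ℂ) 1 / N)) := by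
      simp only [hκ]
      rw [blockCoeff_one_eq hM B.2.1 S, mul_div_assoc, Finset.sum_div]
      congr 1
      refine Finset.sum_congr rfl fun χ _ => ?_
      ring
    have hloc2 : ∀ χ : IrrCharacter G, MemLocalRing M
        (blkInd B.1 χ * ((mS (S : Subgroup G) χ : ℂ) * ((χ : G → ℂ) 1 / N))) := by
      intro χ
      by_cases hχ : χ ∈ B.1
      · rw [blkInd_of_mem hχ, one_mul]
        refine memLocalRing_mul (memLocalRing_natCast _) (memLocalRing_deg_div_pow hM ?_)
        rw [← hmin B]
        exact minExp_le hχ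
      · rw [blkInd_of_not_mem hχ, zero_mul]
        exact memLocalRing_zero
    have h4 : MemLocalIdeal M ((∑ c : ConjClasses G, blockCoeff B.1 (Quotient.out c)⁻¹ *
        ((wCount (S : Subgroup G) (Quotient.out c) (x j) : ℂ) / N)) - κ B * lam B j) := by
      rw [h2, h3]
      have h5 : h * (∑ χ : IrrCharacter G, blkInd B.1 χ * ((mS (S : Subgroup G) χ : ℂ) * ((χ : G → ℂ) 1 / N) *
          centralChar (χ : G → ℂ) (x j))) - h * (∑ χ : IrrCharacter G, blkInd B.1 χ *
          ((mS (S : Subgroup G) χ : ℂ) * ((χ : G → ℂ) 1 / N))) * lam B j =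
          h * ∑ χ : IrrCharacter G, (blkInd B.1 χ * ((mS (S : Subgroup G) χ : ℂ) * ((χ : G → ℂ) 1 / N))) *
            (centralChar (χ : G → ℂ) (x j) - lam B j) := by
        rw [mul_assoc, ← mul_sub, Finset.sum_mul, ← Finset.sum_sub_distrib]
        congr 1
        refine Finset.sum_congr rfl fun χ _ => ?_
        ring
      rw [h5]
      refine memLocalIdeal_mul_left hhloc (memLocalIdeal_sum _ _ fun χ _ => ?_)
      by_cases hχ : χ ∈ B.1
      · exact memLocalIdeal_mul_left (hloc2 χ) (sameBlock_of_mem_block hM B.2.1 hχ (hchB B) _)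
      · rw [blkInd_of_not_mem hχ, zero_mul, zero_mul]
        exact memLocalIdeal_zero
    have h5 := res_eq_of_sub (memLocalRing_sum _ _ fun c _ => memLocalRing_mul (hcoefloc B _)
      (wCount_div_mem_right hM S _ (hval j).ge)) (memLocalRing_mul (hκu B).1 (hlamloc B j)) h4
    rw [res_mul (hκu B).1 (hlamloc B j)] at h5
    rw [← h5, h1]
    refine Finset.sum_congr rfl fun i _ => ?_
    rw [res_mul (hcoefloc B _) (wCount_div_mem_right hM S _ (hval j).ge)]
  -- matrices
  letI hCh := charP_resF (M := M) hM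
  set φ : ZMod p →+* ResF M := ZMod.castHom (dvd_refl p) (ResF M) with hφ
  set A : Matrix ι ι (ZMod p) := Matrix.of fun i j : ι =>
    ((wCount (S : Subgroup G) (Quotient.out (K i)) (Quotient.out (K j)) / p ^ k : ℕ) : ZMod p) with hA
  have hAφ : ∀ i j, (A.map φ) i j = res M (w i j) := by
    intro i j
    simp only [Matrix.map_apply, hA, Matrix.of_apply]
    rw [map_natCast, ← res_natCast, hnat]
  have hrank : (A.map φ).rank = A.rank := rank_map_field φ A
  set Lam : Matrix T ι (ResF M) := Matrix.of fun B j => res M (lam B j) with hLam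
  set E : Matrix ι T (ResF M) := Matrix.of fun i B => res M (blockCoeff B.1 (x i)) with hE
  set V : Matrix ι T (ResF M) := Matrix.of fun i B => res M (v i B) with hV
  set W' : Matrix T ι (ResF M) := Matrix.of fun B i => res M (blockCoeff B.1 (x i)⁻¹) with hW'
  set kap : T → ResF M := fun B => res M (κ B) with hkap
  have hkap0 : ∀ B, kap B ≠ 0 := fun B h0 =>
    (hκu B).2 ((res_eq_zero_iff (hκu B).1).mp h0)
  have hup : A.map φ = V * Lam := by
    ext i j
    rw [hAφ, hE3, Matrix.mul_apply]
    rfl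
  have hLE : Lam * E = 1 := by
    ext B B'
    rw [Matrix.mul_apply, Matrix.one_apply]
    exact hE1 B B'
  have hWA : W' * A.map φ = Matrix.diagonal kap * Lam := by
    ext B j
    rw [Matrix.mul_apply, Matrix.diagonal_mul]
    simp only [hAφ]
    exact hE2 B j
  have hle1 : (A.map φ).rank ≤ Fintype.card T := by
    rw [hup]
    exact (Matrix.rank_mul_le_right _ _).trans (Matrix.rank_le_card_height _)
  have hle2 : Fintype.card T ≤ (A.map φ).rank := by
    have h1 : W' * A.map φ * E = Matrix.diagonal kap := by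
      rw [hWA, Matrix.mul_assoc, hLE, Matrix.mul_one]
    have h2 : (Matrix.diagonal kap).rank = Fintype.card T := by
      rw [Matrix.rank_diagonal]
      apply Fintype.card_congr
      exact Equiv.subtypeUnivEquiv hkap0
    rw [← h2, ← h1]
    exact (Matrix.rank_mul_le_left _ _).trans (Matrix.rank_mul_le_right _ _)
  rw [Nat.card_eq_fintype_card, ← hrank]
  exact le_antisymm hle2 hle1

end Main

end Cfsg.Agent.Lib.BlkRobinson
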