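import Mathlib
import Cfsg.Agent.Lib.BlkCover
import Cfsg.Agent.Lib.BlkRobinson
import Cfsg.Agent.Lib.BlkFong
import Cfsg.Agent.Lib.PSolv
import Cfsg.Agent.Lib.McKayTools

/-!
# Heights in `p`-solvable groups

Fong's reductions and the bound `p^h ≤ |D : Z(D)|`.
-/

set_option autoImplicit false
set_option linter.unusedVariables false
set_option linter.unusedSectionVars false
set_option linter.style.haveILetI false

namespace Cfsg.Agent.Lib.BlkPSolvHt

open Cfsg Cfsg.Agent.Lib.CharBasic Cfsg.Agent.Lib.CharInduction Cfsg.Agent.Lib.ImplGroup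
open Cfsg.Agent.Lib.CosetAvg Cfsg.Agent.Lib.CharInd Cfsg.Agent.Lib.BlkCover
open Cfsg.Agent.Lib.BlkLink Cfsg.Agent.Lib.BlockLocal Cfsg.Agent.Lib.BlockIdem
open Cfsg.Agent.Lib.PCore Cfsg.Agent.Lib.PSolv Cfsg.Agent.Lib.BlockQ
open scoped ComplexConjugate

universe u

/-! ### Central extensions with kernel prime to `p` -/

section Lift

variable {Γ Q : Type*} [Group Γ] [Group Q] [Finite Γ] [Finite Q] {p : ℕ} [hp : Fact p.Prime]

theorem eq_one_of_pow_of_ker {f : Γ →* Q} (hk : ¬ p ∣ Nat.card f.ker) {x : Γ} (hx : f x = 1) {n : ℕ}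
    (hxn : x ^ p ^ n = 1) : x = 1 := by
  have h1 : x ^ Nat.card f.ker = 1 := by
    have := pow_card_eq_one' (x := (⟨x, MonoidHom.mem_ker.mpr hx⟩ : f.ker))
    simpa [Subtype.ext_iff] using this
  have h2 := orderOf_dvd_of_pow_eq_one h1
  have h3 := orderOf_dvd_of_pow_eq_one hxn
  have hc : Nat.Coprime (p ^ n) (Nat.card f.ker) :=
    Nat.Coprime.pow_left _ ((Nat.Prime.coprime_iff_not_dvd hp.out).mpr hk)
  have h4 := Nat.eq_one_of_dvd_coprimes hc h3 h2
  exact orderOf_eq_one_iff.mp h4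

/-- A normal `p`-subgroup of the quotient lifts to a normal `p`-subgroup. -/
theorem exists_lift (f : Γ →* Q) (hf : Function.Surjective f) (hc : ∀ z, f z = 1 → ∀ y, z * y = y * z)
    (hk : ¬ p ∣ Nat.card f.ker) (W : Subgroup Q) [hWn : W.Normal] (hW : IsPGroup p W) :
    ∃ P : Subgroup Γ, P.Normal ∧ IsPGroup p P ∧ P.map f = W ∧ ∀ x ∈ P, f x = 1 → x = 1 := by
  classical
  set W' := W.comap f with hW'
  obtain ⟨S⟩ : Nonempty (Sylow p W') := inferInstance
  set P : Subgroup Γ := (S : Subgroup W').map W'.subtype with hP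
  have hPp : IsPGroup p P := S.isPGroup'.map _
  have hPW : P ≤ W' := Subgroup.map_subtype_le _
  have hinj : ∀ x ∈ P, f x = 1 → x = 1 := by
    intro x hx hfx
    obtain ⟨n, hn⟩ := hPp ⟨x, hx⟩
    exact eq_one_of_pow_of_ker hk hfx (n := n) (by simpa [Subtype.ext_iff] using hn)
  have hmapinj : Function.Injective (fun x : P => (⟨f x, by
      exact (Subgroup.mem_map.mpr ⟨x, x.2, rfl⟩)⟩ : P.map f)) := by
    intro a b h
    have h1 : f (a : Γ) = f (b : Γ) := congrArg Subtype.val h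
    have h2 : f ((a : Γ) * (b : Γ)⁻¹) = 1 := by
      rw [map_mul, map_inv, h1, mul_inv_cancel]
    have h3 := hinj _ (P.mul_mem a.2 (P.inv_mem b.2)) h2
    apply Subtype.ext
    exact mul_inv_eq_one.mp h3
  have hcardP : Nat.card P = Nat.card (P.map f) := by
    apply Nat.card_congr
    refine Equiv.ofBijective _ ⟨hmapinj, ?_⟩
    rintro ⟨y, x, hx, rfl⟩
    exact ⟨⟨x, hx⟩, rfl⟩
  have hcardW' : Nat.card W' = Nat.card W * Nat.card f.ker := card_comap_of_surjective f hf W
  obtain ⟨n, hn⟩ := hW.exists_card_eq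
  have hSc : Nat.card S = p ^ (Nat.card W').factorization p := Sylow.card_eq_multiplicity S
  have hfac : (Nat.card W').factorization p = n := by
    rw [hcardW', hn, Nat.factorization_mul (pow_ne_zero _ hp.out.ne_zero) Nat.card_pos.ne',
      hp.out.factorization_pow, Finsupp.add_apply, Finsupp.single_eq_same,
      Nat.factorization_eq_zero_of_not_dvd hk, add_zero]
  have hPc : Nat.card P = p ^ n := by
    rw [← hfac, hP, Subgroup.card_map_of_injective Subtype.val_injective]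
    exact hSc
  have hPmap : P.map f = W := by
    apply Subgroup.eq_of_le_of_card_ge
    · rintro _ ⟨x, hx, rfl⟩
      exact hPW hx
    · rw [← hcardP, hPc, hn]
  refine ⟨P, ⟨?_⟩, hPp, hPmap, hinj⟩
  intro x hx g
  have h1 : f (g * x * g⁻¹) ∈ P.map f := by
    rw [hPmap, map_mul, map_mul, map_inv]
    exact hWn.conj_mem _ (hPW hx) _
  obtain ⟨y, hy, hyf⟩ := h1
  set w := g * x * g⁻¹ with hw
  have hz : f (y⁻¹ * w) = 1 := by
    rw [map_mul, map_inv, hyf, inv_mul_cancel]
  have hcentral := hc _ hz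
  -- `z = y⁻¹ w` is a `p`-element
  obtain ⟨a, ha⟩ := hPp ⟨x, hx⟩
  obtain ⟨b, hb⟩ := hPp ⟨y, hy⟩
  have hxa : x ^ p ^ a = 1 := by simpa [Subtype.ext_iff] using ha
  have hyb : y ^ p ^ b = 1 := by simpa [Subtype.ext_iff] using hb
  have hwa : w ^ p ^ a = 1 := by
    rw [hw, conj_pow, hxa]
    simp
  have hcomm : Commute y⁻¹ w := by
    have h2 := hcentral y
    have h5 : y * (y⁻¹ * w) = w := by group
    rw [h5] at h2
    have h4 : Commute y w := by
      show y * w = w * y
      calc y * w = y * (y⁻¹ * w * y) := by rw [h2]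
        _ = w * y := by group
    exact h4.inv_left
  have hpow : (y⁻¹ * w) ^ p ^ (a + b) = 1 := by
    have hy' : y ^ p ^ (a + b) = 1 := by rw [pow_add, mul_comm, pow_mul, hyb, one_pow]
    have hw' : w ^ p ^ (a + b) = 1 := by rw [pow_add, pow_mul, hwa, one_pow]
    rw [hcomm.mul_pow, inv_pow, hy', hw']
    simp
  have h6 := eq_one_of_pow_of_ker hk hz hpow
  have h7 : w = y := by
    have := h6
    rw [inv_mul_eq_one] at this
    exact this.symm
  rw [h7]
  exact hy

end Lift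


/-! ### Central extensions of groups with trivial `O_{p'}` -/

section Full

variable {Γ Q : Type u} [Group Γ] [Group Q] [Finite Γ] [Finite Q] {p : ℕ} [hp : Fact p.Prime]
  {M : Ideal AlgInt}

theorem eq_one_of_mem_pgroup {W : Subgroup Q} (hW : IsPGroup p W) {x : Q} (hx : x ∈ W)
    (hreg : ¬ p ∣ orderOf x) : x = 1 := by
  obtain ⟨n, hn⟩ := hW ⟨x, hx⟩
  have h1 : x ^ p ^ n = 1 := by simpa [Subtype.ext_iff] using hn
  obtain ⟨m, -, hm⟩ := (Nat.dvd_prime_pow hp.out).mp (orderOf_dvd_of_pow_eq_one h1)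
  rcases Nat.eq_zero_or_pos m with rfl | hm0
  · rw [pow_zero] at hm
    exact orderOf_eq_one_iff.mp hm
  · exfalso
    apply hreg
    rw [hm]
    exact dvd_pow_self p hm0.ne'

/-- A defect class of a central extension (of order prime to `p`) of a `p`-solvable group with
trivial `O_{p'}` lies in the kernel. -/
theorem map_defect_class_eq_one (hM : IsPModular p M) (f : Γ →* Q) (hf : Function.Surjective f)
    (hc : ∀ z, f z = 1 → ∀ y, z * y = y * z) (hk : ¬ p ∣ Nat.card f.ker)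
    (hsol : IsPSolvable p Q) (h0 : pPrimeCore p Q = ⊥) {b : Set (IrrCharacter Γ)} (hb : IsPBlock M b)
    {y : Γ} (hy : IsDefectClass M b y) : f y = 1 := by
  classical
  letI := Fintype.ofFinite Γ
  obtain ⟨P₁, hn, hpg, hmap, hinj⟩ := exists_lift f hf hc hk (pCore p Q) (isPGroup_pCore p)
  obtain ⟨S⟩ : Nonempty (Sylow p (Subgroup.centralizer ({y} : Set Γ))) := inferInstance
  have hD : IsDefectGroup p M b ((S : Subgroup (Subgroup.centralizer ({y} : Set Γ))).map
      (Subgroup.centralizer ({y} : Set Γ)).subtype) := ⟨y, hy, S, rfl⟩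
  have hle := Cfsg.Agent.Lib.BlkFirst.normal_le_defect hM hn hpg hb hD
  have hcent : P₁ ≤ Subgroup.centralizer ({y} : Set Γ) := hle.trans (Subgroup.map_subtype_le _)
  have h1 : f y ∈ Subgroup.centralizer (pCore p Q : Set Q) := by
    rw [Subgroup.mem_centralizer_iff]
    intro w hw
    have hw' : w ∈ P₁.map f := by
      rw [hmap]
      exact hw
    obtain ⟨u, hu, rfl⟩ := hw'
    rw [← map_mul, ← map_mul]
    congr 1
    have h2 := hcent hu
    rw [Subgroup.mem_centralizer_singleton_iff] at h2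
    exact h2
  have h2 := centralizer_pCore_le_of_pSolvable hsol h0 h1
  have hreg := Cfsg.Agent.Lib.BlkDefect.regular_of_isDefectClass hM hb hy
  exact eq_one_of_mem_pgroup (isPGroup_pCore p) h2 (fun h => hreg (h.trans (orderOf_map_dvd f y)))

/-- Every block of such an extension has a character of degree prime to `p`. -/
theorem minExp_eq_zero (hM : IsPModular p M) (f : Γ →* Q) (hf : Function.Surjective f)
    (hc : ∀ z, f z = 1 → ∀ y, z * y = y * z) (hk : ¬ p ∣ Nat.card f.ker)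
    (hsol : IsPSolvable p Q) (h0 : pPrimeCore p Q = ⊥) {b : Set (IrrCharacter Γ)} (hb : IsPBlock M b) :
    Cfsg.Agent.Lib.BlockQ.minExp p b = 0 := by
  classical
  letI := Fintype.ofFinite Γ
  obtain ⟨y, hy⟩ := Cfsg.Agent.Lib.BlockDefect.exists_isDefectClass hM hb
  have h1 := map_defect_class_eq_one hM f hf hc hk hsol h0 hb hy
  have hcen := hc y h1
  have htop : Subgroup.centralizer ({y} : Set Γ) = ⊤ := by
    rw [eq_top_iff]
    intro x _
    rw [Subgroup.mem_centralizer_singleton_iff]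
    exact (hcen x).symm
  obtain ⟨S⟩ : Nonempty (Sylow p (Subgroup.centralizer ({y} : Set Γ))) := inferInstance
  have hD : IsDefectGroup p M b ((S : Subgroup (Subgroup.centralizer ({y} : Set Γ))).map
      (Subgroup.centralizer ({y} : Set Γ)).subtype) := ⟨y, hy, S, rfl⟩
  have h2 := Cfsg.Agent.Lib.BlkRobinson.minExp_eq hM hb hD
  rw [h2, Subgroup.card_map_of_injective Subtype.val_injective, Sylow.card_eq_multiplicity S,
    hp.out.factorization_pow, Finsupp.single_eq_same, htop, Nat.card_congr Subgroup.topEquiv.toEquiv,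
    Nat.sub_self]

/-- The centre of `O_p(Q)`. -/
def coreCenter (p : ℕ) (Q : Type*) [Group Q] : Subgroup Q :=
  pCore p Q ⊓ Subgroup.centralizer (pCore p Q : Set Q)

instance coreCenter_normal (p : ℕ) (Q : Type*) [Group Q] : (coreCenter p Q).Normal := by
  unfold coreCenter
  haveI : (pCore p Q).Characteristic := Cfsg.Agent.Lib.PCore.pCore_characteristic p
  haveI : (pCore p Q).Normal := inferInstance
  exact Subgroup.normal_inf_normal _ _

theorem coreCenter_isPGroup : IsPGroup p (coreCenter p Q) :=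
  (isPGroup_pCore p).to_le inf_le_left

theorem coreCenter_comm {a b : Q} (ha : a ∈ coreCenter p Q) (hb : b ∈ coreCenter p Q) : a * b = b * a := by
  have h1 := (Subgroup.mem_centralizer_iff.mp hb.2) a ha.1
  exact h1

theorem charDegree_dvd_index (f : Γ →* Q) (hf : Function.Surjective f)
    (hc : ∀ z, f z = 1 → ∀ y, z * y = y * z) (hk : ¬ p ∣ Nat.card f.ker) {ψ : Γ → ℂ}
    (hψ : IsIrrCharacter Γ ψ) : charDegree ψ ∣ (coreCenter p Q).index := by
  classical
  obtain ⟨P₂, hn, hpg, hmap, hinj⟩ := exists_lift f hf hc hk (coreCenter p Q) coreCenter_isPGroup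
  set L := (coreCenter p Q).comap f with hL
  have hLn : L.Normal := Subgroup.Normal.comap inferInstance f
  have hcomm : ∀ a b : L, a * b = b * a := by
    rintro ⟨a, ha⟩ ⟨b, hb⟩
    apply Subtype.ext
    show a * b = b * a
    have ha' : f a ∈ P₂.map f := by
      rw [hmap]
      exact ha
    have hb' : f b ∈ P₂.map f := by
      rw [hmap]
      exact hb
    obtain ⟨u, hu, huf⟩ := ha'
    obtain ⟨v, hv, hvf⟩ := hb'
    have hu1 : f (u⁻¹ * a) = 1 := by rw [map_mul, map_inv, huf, inv_mul_cancel]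
    have hv1 : f (v⁻¹ * b) = 1 := by rw [map_mul, map_inv, hvf, inv_mul_cancel]
    have hz := hc _ hu1
    have hw := hc _ hv1
    have huv : u * v = v * u := by
      have h1 : f (u * v * (v * u)⁻¹) = 1 := by
        rw [map_mul, map_inv, map_mul, map_mul, huf, hvf, coreCenter_comm ha hb]
        simp
      have h2 := hinj _ (P₂.mul_mem (P₂.mul_mem hu hv) (P₂.inv_mem (P₂.mul_mem hv hu))) h1
      exact mul_inv_eq_one.mp h2
    have ea : a = u * (u⁻¹ * a) := by group
    have eb : b = v * (v⁻¹ * b) := by group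
    set z := u⁻¹ * a with hzz
    set w := v⁻¹ * b with hww
    rw [ea, eb]
    calc u * z * (v * w) = u * (z * v) * w := by group
      _ = u * (v * z) * w := by rw [hz v]
      _ = (u * v) * (z * w) := by group
      _ = (v * u) * (w * z) := by rw [huv, hz w]
      _ = v * (u * w) * z := by group
      _ = v * (w * u) * z := by rw [hw u]
      _ = v * w * (u * z) := by group
  have h1 := Cfsg.Agent.Lib.McKayTools.ito_dvd L hcomm hψ
  rwa [hL, Subgroup.index_comap_of_surjective _ hf] at h1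

end Full

/-! ### The centre of a Sylow subgroup -/

section CenterSylow

variable {G : Type u} [Group G] [Finite G] {p : ℕ} [hp : Fact p.Prime]

/-- The centre of a Sylow subgroup embeds in the centre of `O_p(G/O_{p'}(G))`. -/
theorem card_center_dvd (hsol : IsPSolvable p G) (D : Subgroup G)
    (hD : Nat.card D = p ^ (Nat.card G).factorization p) :
    Nat.card (Subgroup.center D) ∣ Nat.card (coreCenter p (G ⧸ pPrimeCore p G)) := by
  classical
  set K := pPrimeCore p G with hK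
  have hKn : K.Normal := inferInstance
  let π : G →* G ⧸ K := QuotientGroup.mk' K
  have hπs : Function.Surjective π := QuotientGroup.mk'_surjective K
  have hKp : ¬ p ∣ Nat.card K := not_dvd_card_pPrimeCore p
  have hDp : IsPGroup p D := IsPGroup.of_card hD
  have hkerπ : π.ker = K := QuotientGroup.ker_mk' K
  have hinj : ∀ x ∈ D, π x = 1 → x = 1 := by
    intro x hx hπx
    have hxK : x ∈ K := by
      rw [← hkerπ]
      exact hπx
    obtain ⟨n, hn⟩ := hDp ⟨x, hx⟩
    have h1 : x ^ p ^ n = 1 := by simpa [Subtype.ext_iff] using hn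
    have h2 : x ^ Nat.card K = 1 := Subtype.ext_iff.mp (pow_card_eq_one' (x := (⟨x, hxK⟩ : K)))
    have hc : Nat.Coprime (p ^ n) (Nat.card K) :=
      Nat.Coprime.pow_left _ ((Nat.Prime.coprime_iff_not_dvd hp.out).mpr hKp)
    exact orderOf_eq_one_iff.mp (Nat.eq_one_of_dvd_coprimes hc (orderOf_dvd_of_pow_eq_one h1)
      (orderOf_dvd_of_pow_eq_one h2))
  have hinjD : Function.Injective (π.comp D.subtype) := by
    rw [injective_iff_map_eq_one]
    intro a ha
    apply Subtype.ext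
    exact hinj a a.2 ha
  -- the image of `D` is Sylow
  have hcardQ : (Nat.card (G ⧸ K)).factorization p = (Nat.card G).factorization p := by
    have h1 := Subgroup.card_mul_index K
    have h2 : Nat.card (G ⧸ K) = K.index := rfl
    rw [← h1, h2, Nat.factorization_mul Nat.card_pos.ne' (Subgroup.index_ne_zero_of_finite),
      Finsupp.add_apply, Nat.factorization_eq_zero_of_not_dvd hKp, zero_add]
  set DQ := D.map π with hDQ
  have hcardDQ : Nat.card DQ = p ^ (Nat.card (G ⧸ K)).factorization p := by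
    have h1 : Nat.card DQ = Nat.card D := by
      rw [hDQ]
      have : D.map π = (⊤ : Subgroup D).map (π.comp D.subtype) := by
        ext x
        simp [Subgroup.mem_map]
      rw [this, Subgroup.card_map_of_injective hinjD, Subgroup.card_top]
    rw [h1, hD, hcardQ]
  let SQ : Sylow p (G ⧸ K) := Sylow.ofCard DQ hcardDQ
  have hWle : pCore p (G ⧸ K) ≤ DQ := pCore_le_sylow p SQ
  have hsolQ : IsPSolvable p (G ⧸ K) := isPSolvable_quotient hsol K
  have h0 : pPrimeCore p (G ⧸ K) = ⊥ := pPrimeCore_quotient_pPrimeCore p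
  have hmem : ∀ z : Subgroup.center D, π ((z : D) : G) ∈ coreCenter p (G ⧸ K) := by
    intro z
    have h1 : π ((z : D) : G) ∈ Subgroup.centralizer (pCore p (G ⧸ K) : Set (G ⧸ K)) := by
      rw [Subgroup.mem_centralizer_iff]
      intro w hw
      obtain ⟨u, hu, rfl⟩ := hWle hw
      rw [← map_mul, ← map_mul]
      congr 1
      have h2 := (Subgroup.mem_center_iff.mp z.2) ⟨u, hu⟩
      exact congrArg Subtype.val h2
    exact ⟨centralizer_pCore_le_of_pSolvable hsolQ h0 h1, h1⟩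
  let F : Subgroup.center D →* coreCenter p (G ⧸ K) :=
    { toFun := fun z => ⟨π ((z : D) : G), hmem z⟩
      map_one' := by
        apply Subtype.ext
        simp
      map_mul' := by
        intro a b
        apply Subtype.ext
        simp }
  have hF : Function.Injective F := by
    rw [injective_iff_map_eq_one]
    intro a ha
    have h1 : π ((a : D) : G) = 1 := congrArg Subtype.val ha
    have h2 := hinj _ (a : D).2 h1
    apply Subtype.ext
    apply Subtype.ext
    exact h2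
  exact Subgroup.card_dvd_of_injective F hF

end CenterSylow

/-! ### Central ratios -/

section Ratio

variable {E : Type*} [Group E] [Fintype E] {p : ℕ}

/-- Linked characters have the same central character on central elements of order prime to `p`. -/
theorem ratio_eq_of_regInner_ne {ν₁ ν₂ : E → ℂ} (h₁ : IsIrrCharacter E ν₁) (h₂ : IsIrrCharacter E ν₂) {z : E}
    (hcen : ∀ y, z * y = y * z) (hreg : ∀ x, p ∣ orderOf (z * x) ↔ p ∣ orderOf x)
    (hne : regInner p ν₁ ν₂ ≠ 0) : ν₁ z * ν₂ 1 = ν₂ z * ν₁ 1 := by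
  classical
  have h10 : ν₁ 1 ≠ 0 := Cfsg.Agent.Lib.BlockIdem.irr_one_ne_zero' h₁
  have h20 : ν₂ 1 ≠ 0 := Cfsg.Agent.Lib.BlockIdem.irr_one_ne_zero' h₂
  set a := ν₁ z / ν₁ 1 with ha
  set b := ν₂ z / ν₂ 1 with hb
  have hmul₁ : ∀ x, ν₁ (z * x) = a * ν₁ x := by
    intro x
    have := Cfsg.Agent.Lib.CharCentral.central_mul h₁ hcen x
    rw [ha]
    field_simp
    linear_combination this
  have hmul₂ : ∀ x, ν₂ (z * x) = b * ν₂ x := by
    intro x
    have := Cfsg.Agent.Lib.CharCentral.central_mul h₂ hcen x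
    rw [hb]
    field_simp
    linear_combination this
  have h1 : regInner p ν₁ ν₂ = a * conj b * regInner p ν₁ ν₂ := by
    unfold regInner
    conv_lhs => rw [← Equiv.sum_comp (Equiv.mulLeft z)]
    rw [Finset.mul_sum]
    refine Finset.sum_congr rfl fun x _ => ?_
    simp only [Equiv.coe_mulLeft]
    by_cases h : p ∣ orderOf x
    · have h' := (hreg x).mpr h
      simp [h, h']
    · have h' : ¬ p ∣ orderOf (z * x) := fun h2 => h ((hreg x).mp h2)
      simp only [h, h', not_false_eq_true, if_true, hmul₁, hmul₂, map_mul]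
      ring
  have h2 : a * conj b = 1 := by
    have h3 : (1 - a * conj b) * regInner p ν₁ ν₂ = 0 := by
      rw [sub_mul, one_mul, ← h1, sub_self]
    rcases mul_eq_zero.mp h3 with h4 | h4
    · linear_combination -h4
    · exact absurd h4 hne
  have h3 : b * conj b = 1 := by
    have h4 := Cfsg.Agent.Lib.CharCentral.central_mul h₂ hcen z⁻¹
    rw [mul_inv_cancel, ← char_conj_eq_inv (IsIrrCharacter.isCharacter h₂)] at h4
    have h5 : conj (ν₂ 1) = ν₂ 1 := by
      have := char_conj_eq_inv (IsIrrCharacter.isCharacter h₂) (1 : E)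
      rwa [inv_one] at this
    rw [hb, map_div₀, h5]
    field_simp
    linear_combination -h4
  have h4 : a = b := by
    have h5 : conj b ≠ 0 := by
      intro h6
      rw [h6, mul_zero] at h3
      exact zero_ne_one h3
    apply mul_right_cancel₀ h5
    rw [h2, h3]
  rw [ha, hb] at h4
  field_simp at h4
  linear_combination h4

end Ratio

/-! ### Transfer of links -/

section Transfer

variable {G : Type u} [Group G] [Fintype G] {N : Subgroup G} [hN : N.Normal] [Fintype N] {k : ℕ}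
  {ρ : Representation ℂ N (Fin k → ℂ)} {E : Type u} [Group E] [Fintype E] (C : Cover N ρ E) [Fintype C.A]
  [Fintype (E ⧸ C.A)] {p : ℕ} {M : Ideal AlgInt}

/-- `χ` decomposes as `ψ ζ`. -/
def Desc (χ : IrrCharacter G) (ψ : IrrCharacter (E ⧸ C.A)) : Prop :=
  ∀ x : E, (χ : G → ℂ) (C.π x) = (ψ : E ⧸ C.A → ℂ) (x : E ⧸ C.A) * C.ζ x

theorem not_dvd_ker (hp : p.Prime) (hpN : ¬ p ∣ Nat.card N) (hkN : k ∣ Nat.card N) :
    ¬ p ∣ Nat.card C.π.ker := by
  intro h
  haveI : Fact p.Prime := ⟨hp⟩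
  obtain ⟨x, hx⟩ := exists_prime_orderOf_dvd_card' p h
  have h1 : (x : E) ^ (k * Nat.card N) = 1 := C.ker_pow x (MonoidHom.mem_ker.mp x.2)
  have h2 : orderOf (x : E) = p := by
    rw [← hx, Subgroup.orderOf_coe]
  have h3 : p ∣ k * Nat.card N := by
    rw [← h2]
    exact orderOf_dvd_of_pow_eq_one h1
  rcases (Nat.Prime.dvd_mul hp).mp h3 with h4 | h4
  · exact hpN (h4.trans hkN)
  · exact hpN h4

theorem mk_invariant (φ : E ⧸ C.A → ℂ) (a : C.A) (x : E) :
    φ (((a : E) * x : E) : E ⧸ C.A) = φ (x : E ⧸ C.A) := by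
  congr 1
  rw [QuotientGroup.mk_mul]
  have : ((a : E) : E ⧸ C.A) = 1 := (QuotientGroup.eq_one_iff _).mpr a.2
  rw [this, one_mul]

theorem linked_transfer (hp : p.Prime) (hpN : ¬ p ∣ Nat.card N) (hkN : k ∣ Nat.card N)
    (hρ : ρ.IsIrreducible) {χ₁ : IrrCharacter G} {ψ₁ ψ₂ : IrrCharacter (E ⧸ C.A)}
    (hd : Desc C χ₁ ψ₁) (hl : Linked p ψ₁ ψ₂) :
    ∃ χ₂ : IrrCharacter G, Desc C χ₂ ψ₂ ∧ Linked p χ₁ χ₂ := by
  classical
  set mk := QuotientGroup.mk' C.A with hmk
  have hmks : Function.Surjective mk := QuotientGroup.mk'_surjective _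
  have hkA : ¬ p ∣ Nat.card mk.ker := by
    rw [hmk, QuotientGroup.ker_mk', C.card_A]
    exact hpN
  have hkπ := not_dvd_ker C hp hpN hkN
  set ν₁ : E → ℂ := (ψ₁ : E ⧸ C.A → ℂ) ∘ mk with hν₁
  set ν₂ : E → ℂ := (ψ₂ : E ⧸ C.A → ℂ) ∘ mk with hν₂
  have hi₁ : IsIrrCharacter E ν₁ := isIrrCharacter_comp_of_surjective mk hmks ψ₁.2
  have hi₂ : IsIrrCharacter E ν₂ := isIrrCharacter_comp_of_surjective mk hmks ψ₂.2
  have hinv₁ : ∀ (a : C.A) (x : E), ν₁ ((a : E) * x) = ν₁ x := fun a x => mk_invariant C _ a x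
  have hinv₂ : ∀ (a : C.A) (x : E), ν₂ ((a : E) * x) = ν₂ x := fun a x => mk_invariant C _ a x
  have hreg₀ : regInner p ν₁ ν₂ = (Nat.card mk.ker : ℂ) * regInner p (ψ₁ : E ⧸ C.A → ℂ) (ψ₂ : E ⧸ C.A → ℂ) :=
    regInner_comp mk hmks hp hkA _ _
  have hA0 : (Nat.card mk.ker : ℂ) ≠ 0 := by exact_mod_cast Nat.card_pos.ne'
  have hne : regInner p ν₁ ν₂ ≠ 0 := by
    rw [hreg₀]
    exact mul_ne_zero hA0 hl
  have hζ1 : C.ζ 1 ≠ 0 := by
    have : C.ζ 1 = k := char_one_eq_rep C.R
    rw [this]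
    have hV : Nontrivial (Fin k → ℂ) := ((isIrreducible_iff ρ).mp hρ).1
    have hk : k ≠ 0 := by
      rintro rfl
      exact not_subsingleton _ (inferInstance : Subsingleton (Fin 0 → ℂ))
    exact_mod_cast hk
  have hker : ∀ x, C.π x = 1 → (ν₂ * C.ζ) x = (ν₂ * C.ζ) 1 := by
    intro z hz
    have hcen := C.ker_central z hz
    have hreg : ∀ x, p ∣ orderOf (z * x) ↔ p ∣ orderOf x := by
      intro x
      rw [← dvd_orderOf_iff C.π hp hkπ, ← dvd_orderOf_iff C.π hp hkπ x, map_mul, hz, one_mul]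
    have h1 := ratio_eq_of_regInner_ne hi₁ hi₂ hcen hreg hne
    have h2 := hd z
    have h3 := hd 1
    rw [hz] at h2
    rw [map_one] at h3
    have h4 : ν₁ z * C.ζ z = ν₁ 1 * C.ζ 1 := by
      show (ψ₁ : E ⧸ C.A → ℂ) (mk z) * C.ζ z = (ψ₁ : E ⧸ C.A → ℂ) (mk 1) * C.ζ 1
      calc _ = (χ₁ : G → ℂ) 1 := h2.symm
        _ = _ := h3
    have h10 : ν₁ 1 ≠ 0 := Cfsg.Agent.Lib.BlockIdem.irr_one_ne_zero' hi₁
    simp only [Pi.mul_apply]
    apply mul_left_cancel₀ h10
    calc ν₁ 1 * (ν₂ z * C.ζ z) = (ν₂ z * ν₁ 1) * C.ζ z := by ring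
      _ = (ν₁ z * ν₂ 1) * C.ζ z := by rw [h1]
      _ = (ν₁ z * C.ζ z) * ν₂ 1 := by ring
      _ = (ν₁ 1 * C.ζ 1) * ν₂ 1 := by rw [h4]
      _ = ν₁ 1 * (ν₂ 1 * C.ζ 1) := by ring
  obtain ⟨χ₂, hχ₂, hχ₂π⟩ := C.exists_descend (C.isIrr_mul_ζ hρ hi₂ hinv₂) hker
  refine ⟨⟨χ₂, hχ₂⟩, fun x => hχ₂π x, ?_⟩
  -- the link
  have h5 : regInner p ((χ₁ : G → ℂ) ∘ C.π) (χ₂ ∘ C.π) =
      (Nat.card C.π.ker : ℂ) * regInner p (χ₁ : G → ℂ) χ₂ := regInner_comp C.π C.surj hp hkπ _ _
  have h6 : (χ₁ : G → ℂ) ∘ C.π = ν₁ * C.ζ := by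
    funext x
    exact hd x
  have h7 : χ₂ ∘ C.π = ν₂ * C.ζ := by
    funext x
    exact hχ₂π x
  rw [h6, h7, C.regInner_mul_ζ hp hpN hρ hinv₁ hinv₂] at h5
  intro h8
  apply hne
  rw [h5]
  show _ * regInner p (χ₁ : G → ℂ) χ₂ = 0
  rw [show regInner p (χ₁ : G → ℂ) χ₂ = 0 from h8, mul_zero]

/-- Blocks of the central quotient correspond. -/
theorem block_transfer (hM : IsPModular p M) (hpN : ¬ p ∣ Nat.card N) (hkN : k ∣ Nat.card N)
    (hρ : ρ.IsIrreducible) {B : Set (IrrCharacter G)} (hB : IsPBlock M B)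
    {ψ₁ ψ₂ : IrrCharacter (E ⧸ C.A)} (hs : SameBlock M (ψ₁ : E ⧸ C.A → ℂ) (ψ₂ : E ⧸ C.A → ℂ))
    {χ₁ : IrrCharacter G} (hχ₁ : χ₁ ∈ B) (hd : Desc C χ₁ ψ₁) :
    ∃ χ₂ ∈ B, Desc C χ₂ ψ₂ := by
  haveI := hM.2.1.isPrime
  have hstep : ∀ a b : IrrCharacter (E ⧸ C.A), Linked p a b →
      (∃ χ ∈ B, Desc C χ a) → (∃ χ ∈ B, Desc C χ b) := by
    rintro a b hab ⟨χ, hχ, hda⟩
    obtain ⟨χ', hd', hl⟩ := linked_transfer C hM.1 hpN hkN hρ hda hab
    refine ⟨χ', ?_, hd'⟩
    have h1 : SameBlock M (χ : G → ℂ) (χ' : G → ℂ) := sameBlock_of_linked hM (Relation.EqvGen.rel _ _ hl)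
    obtain ⟨χ₀, rfl⟩ := hB
    exact sameBlock_trans hχ h1
  have hsymm : ∀ a b : IrrCharacter (E ⧸ C.A), Linked p a b → Linked p b a := by
    intro a b hab h
    exact hab (regInner_eq_zero_symm h)
  have hrel : ∀ a b, Relation.EqvGen (Linked p) a b →
      ((∃ χ ∈ B, Desc C χ a) ↔ (∃ χ ∈ B, Desc C χ b)) := by
    intro a b h
    induction h with
    | rel x y hxy => exact ⟨hstep x y hxy, hstep y x (hsymm x y hxy)⟩
    | refl x => exact Iff.rfl
    | symm x y _ ih => exact ih.symm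
    | trans x y z _ _ ih1 ih2 => exact ih1.trans ih2
  exact (hrel _ _ ((sameBlock_iff_linked hM).mp hs)).mp ⟨χ₁, hχ₁, hd⟩

end Transfer

/-! ### The invariant case -/

section Invariant

section Fbar

variable {G : Type u} [Group G] {K : Subgroup G} [hK : K.Normal] {k : ℕ}
  {ρ : Representation ℂ K (Fin k → ℂ)} {E : Type u} [Group E] (C : Cover K ρ E)

/-- The map induced on the quotients. -/
noncomputable def fbar : E ⧸ C.A →* G ⧸ K :=
  QuotientGroup.map C.A K C.π (by
    rintro _ ⟨n, rfl⟩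
    show C.π (C.hat n) ∈ K
    rw [C.π_hat]
    exact n.2)

theorem fbar_surj : Function.Surjective (fbar C) := by
  intro q
  obtain ⟨g, rfl⟩ := QuotientGroup.mk_surjective q
  obtain ⟨x, rfl⟩ := C.surj g
  exact ⟨(x : E ⧸ C.A), rfl⟩

theorem fbar_ker {z : E ⧸ C.A} (hz : fbar C z = 1) : ∃ x, C.π x = 1 ∧ z = (x : E ⧸ C.A) := by
  obtain ⟨x, rfl⟩ := QuotientGroup.mk_surjective z
  have h1 : C.π x ∈ K := (QuotientGroup.eq_one_iff _).mp hz
  refine ⟨(C.hat ⟨C.π x, h1⟩)⁻¹ * x, ?_, ?_⟩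
  · rw [map_mul, map_inv, C.π_hat]
    simp
  · rw [QuotientGroup.mk_mul, QuotientGroup.mk_inv]
    have : ((C.hat ⟨C.π x, h1⟩ : E) : E ⧸ C.A) = 1 := (QuotientGroup.eq_one_iff _).mpr ⟨_, rfl⟩
    rw [this]
    simp

theorem fbar_central (z : E ⧸ C.A) (hz : fbar C z = 1) (y : E ⧸ C.A) : z * y = y * z := by
  obtain ⟨x, hx, rfl⟩ := fbar_ker C hz
  obtain ⟨w, rfl⟩ := QuotientGroup.mk_surjective y
  rw [← QuotientGroup.mk_mul, ← QuotientGroup.mk_mul, C.ker_central x hx w]

theorem fbar_not_dvd [Finite E] {p : ℕ} (hp : p.Prime) (hpK : ¬ p ∣ Nat.card K) (hkK : k ∣ Nat.card K) :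
    ¬ p ∣ Nat.card (fbar C).ker := by
  intro h
  haveI : Fact p.Prime := ⟨hp⟩
  obtain ⟨z, hz⟩ := exists_prime_orderOf_dvd_card' p h
  obtain ⟨x, hx, hzx⟩ := fbar_ker C (MonoidHom.mem_ker.mp z.2)
  have h1 : (z : E ⧸ C.A) ^ (k * Nat.card K) = 1 := by
    rw [hzx, ← QuotientGroup.mk_pow, C.ker_pow x hx]
    rfl
  have h2 : orderOf (z : E ⧸ C.A) = p := by
    rw [← hz, Subgroup.orderOf_coe]
  have h3 : p ∣ k * Nat.card K := by
    rw [← h2]
    exact orderOf_dvd_of_pow_eq_one h1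
  rcases (Nat.Prime.dvd_mul hp).mp h3 with h4 | h4
  · exact hpK (h4.trans hkK)
  · exact hpK h4

end Fbar

theorem charDegree_of_desc {G : Type u} [Group G] [Fintype G] {K : Subgroup G} [hK : K.Normal] [Fintype K] {k : ℕ}
    {ρ : Representation ℂ K (Fin k → ℂ)} {E : Type u} [Group E] [Fintype E] (C : Cover K ρ E)
    [Fintype (E ⧸ C.A)] {χ : IrrCharacter G} {ψ : IrrCharacter (E ⧸ C.A)} (hd : Desc C χ ψ) :
    charDegree (χ : G → ℂ) = charDegree (ψ : E ⧸ C.A → ℂ) * k := by
  have h1 := hd 1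
  rw [map_one] at h1
  have h2 : C.ζ 1 = k := char_one_eq_rep C.R
  have h3 : ((1 : E) : E ⧸ C.A) = 1 := rfl
  rw [h2, h3, Cfsg.Agent.Lib.CharKernel.one_eq_charDegree (IsIrrCharacter.isCharacter χ.2),
    Cfsg.Agent.Lib.CharKernel.one_eq_charDegree (IsIrrCharacter.isCharacter ψ.2)] at h1
  exact_mod_cast h1

/-- **The case of an invariant character of `O_{p'}(G)`.** -/
theorem invariant_case {G : Type u} [Group G] [Fintype G] {p : ℕ} [hp : Fact p.Prime] {M : Ideal AlgInt}
    (hM : IsPModular p M) (hsol : IsPSolvable p G) [Fintype (pPrimeCore p G)] (χ : IrrCharacter G)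
    (θ : IrrCharacter (pPrimeCore p G))
    (hθ : classInner (fun n : pPrimeCore p G => (χ : G → ℂ) n) (θ : pPrimeCore p G → ℂ) ≠ 0)
    (hinv : ∀ (g : G) (n : pPrimeCore p G),
      (θ : pPrimeCore p G → ℂ) (conjAut (pPrimeCore p G) inferInstance g n) = (θ : pPrimeCore p G → ℂ) n) :
    minExp p (blockOf M (χ : G → ℂ)) = 0 ∧ ∀ D : Subgroup G, IsDefectGroup p M (blockOf M (χ : G → ℂ)) D →
      (charDegree (χ : G → ℂ)).factorization p ≤ (Subgroup.center D).index.factorization p := by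
  classical
  haveI := hM.2.1.isPrime
  have hKn : (pPrimeCore p G).Normal := inferInstance
  have hθ2 := θ.2
  obtain ⟨k, ρ, hρ, hθρ⟩ := id hθ2
  have hinv' : ∀ (g : G) (n : (pPrimeCore p G)), ρ.character (conjAut (pPrimeCore p G) hKn g n) = ρ.character n := by
    rw [hθρ]
    exact hinv
  have hθ' : classInner (fun n : (pPrimeCore p G) => (χ : G → ℂ) n) ρ.character ≠ 0 := by
    rw [hθρ]
    exact hθ
  obtain ⟨E, iG, iF, ⟨C⟩⟩ := exists_cover (pPrimeCore p G) ρ hρ hinv'
  letI := Fintype.ofFinite E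
  letI : Fintype C.A := Fintype.ofFinite _
  letI : Fintype (E ⧸ C.A) := Fintype.ofFinite _
  have hpK : ¬ p ∣ Nat.card (pPrimeCore p G) := not_dvd_card_pPrimeCore p
  have hkK : k ∣ Nat.card (pPrimeCore p G) := by
    have h1 := Cfsg.Agent.Lib.CharKernel.charDegree_dvd_card hθ2
    rw [← hθρ] at h1
    have h2 : charDegree ρ.character = k := by
      unfold charDegree
      rw [char_one_eq_rep]
      simp
    rwa [h2] at h1
  obtain ⟨ν, hν, hνinv, hχν⟩ := C.exists_decomp hρ χ.2 hθ'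
  obtain ⟨ψ, hψ, hψν⟩ := Cfsg.Agent.Lib.CharKernel.exists_quotient_irr C.A hν (fun x hx => by
    have h1 := hνinv ⟨x, hx⟩ 1
    simpa using h1)
  let ψ' : IrrCharacter (E ⧸ C.A) := ⟨ψ, hψ⟩
  have hd : Desc C χ ψ' := fun x => by
    show (χ : G → ℂ) (C.π x) = ψ (x : E ⧸ C.A) * C.ζ x
    rw [hψν]
    exact hχν x
  have hfs := fbar_surj C
  have hfc := fbar_central C
  have hfk := fbar_not_dvd C hp.out hpK hkK
  have hsolQ : IsPSolvable p (G ⧸ (pPrimeCore p G)) := isPSolvable_quotient hsol (pPrimeCore p G)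
  have h0 : pPrimeCore p (G ⧸ (pPrimeCore p G)) = ⊥ := pPrimeCore_quotient_pPrimeCore p
  have hb : IsPBlock M (blockOf M (ψ' : E ⧸ C.A → ℂ)) := ⟨ψ', rfl⟩
  have hme := minExp_eq_zero hM (fbar C) hfs hfc hfk hsolQ h0 hb
  obtain ⟨ψ₀, hψ₀, hψ₀e⟩ := Cfsg.Agent.Lib.BlockQ.exists_minExp (p := p) hb
  obtain ⟨χ₂, hχ₂, hd₂⟩ := block_transfer C hM hpK hkK hρ (B := blockOf M (χ : G → ℂ)) ⟨χ, rfl⟩
    (ψ₁ := ψ') (ψ₂ := ψ₀) hψ₀ (Cfsg.Agent.Lib.BlockIdem.mem_blockOf_self χ) hd
  have hkp : k.factorization p = 0 := Nat.factorization_eq_zero_of_not_dvd (fun h => hpK (h.trans hkK))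
  have hk0 : k ≠ 0 := by
    intro h
    have := Nat.eq_zero_of_zero_dvd (h ▸ hkK)
    exact Nat.card_pos.ne' this
  have hme2 : minExp p (blockOf M (χ : G → ℂ)) = 0 := by
    have h1 := Cfsg.Agent.Lib.BlockQ.minExp_le (p := p) hχ₂
    rw [charDegree_of_desc C hd₂, Nat.factorization_mul (Cfsg.Agent.Lib.CharKernel.charDegree_ne_zero ψ₀.2) hk0,
      Finsupp.add_apply, hkp, hψ₀e, hme] at h1
    omega
  refine ⟨hme2, fun D hD => ?_⟩
  have hBb : IsPBlock M (blockOf M (χ : G → ℂ)) := ⟨χ, rfl⟩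
  have h1 := Cfsg.Agent.Lib.BlkRobinson.minExp_eq hM hBb hD
  have hDcard : Nat.card D = p ^ (Nat.card G).factorization p := by
    have hDp : IsPGroup p D := by
      have h2 := Cfsg.Agent.Lib.BlockDefect.card_isDefectGroup hM hBb hD
      exact IsPGroup.of_card h2
    obtain ⟨n, hn⟩ := hDp.exists_card_eq
    have h2 : (Nat.card D).factorization p ≤ (Nat.card G).factorization p :=
      Cfsg.Agent.Lib.BlkRobinson.factorization_subgroup_le p D
    have h3 : (Nat.card D).factorization p = (Nat.card G).factorization p := by omega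
    rw [hn, hp.out.factorization_pow, Finsupp.single_eq_same] at h3
    rw [hn, h3]
  have h2 := card_center_dvd hsol D hDcard
  have h3 := charDegree_dvd_index (p := p) (fbar C) hfs hfc hfk hψ
  -- numerics
  have hZ : (Nat.card (Subgroup.center D)).factorization p ≤
      (Nat.card (coreCenter p (G ⧸ (pPrimeCore p G)))).factorization p :=
    (Nat.factorization_le_iff_dvd Nat.card_pos.ne' Nat.card_pos.ne').mpr h2 p
  have hidx : (charDegree ψ).factorization p ≤ (coreCenter p (G ⧸ (pPrimeCore p G))).index.factorization p :=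
    (Nat.factorization_le_iff_dvd (Cfsg.Agent.Lib.CharKernel.charDegree_ne_zero hψ)
      (Subgroup.index_ne_zero_of_finite)).mpr h3 p
  have hdeg : charDegree (χ : G → ℂ) = charDegree ψ * k := charDegree_of_desc C hd
  rw [hdeg, Nat.factorization_mul (Cfsg.Agent.Lib.CharKernel.charDegree_ne_zero hψ) hk0,
    Finsupp.add_apply, hkp, add_zero]
  have hQ1 := Subgroup.card_mul_index (coreCenter p (G ⧸ (pPrimeCore p G)))
  have hQ2 := Subgroup.card_mul_index (pPrimeCore p G)
  have hQ3 : Nat.card (G ⧸ (pPrimeCore p G)) = (pPrimeCore p G).index := rfl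
  have hfQ : (Nat.card G).factorization p = (Nat.card (G ⧸ (pPrimeCore p G))).factorization p := by
    rw [← hQ2, hQ3, Nat.factorization_mul Nat.card_pos.ne' (Subgroup.index_ne_zero_of_finite),
      Finsupp.add_apply, Nat.factorization_eq_zero_of_not_dvd hpK, zero_add]
  have hfQ2 : (Nat.card (G ⧸ (pPrimeCore p G))).factorization p = (Nat.card (coreCenter p (G ⧸ (pPrimeCore p G)))).factorization p +
      (coreCenter p (G ⧸ (pPrimeCore p G))).index.factorization p := by
    rw [← hQ1, Nat.factorization_mul Nat.card_pos.ne' (Subgroup.index_ne_zero_of_finite), Finsupp.add_apply]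
  have hD1 := Subgroup.card_mul_index (Subgroup.center D)
  have hD2 : (Nat.card D).factorization p = (Nat.card (Subgroup.center D)).factorization p +
      (Subgroup.center D).index.factorization p := by
    rw [← hD1, Nat.factorization_mul Nat.card_pos.ne' (Subgroup.index_ne_zero_of_finite), Finsupp.add_apply]
  have hD3 : (Nat.card D).factorization p = (Nat.card G).factorization p := by
    rw [hDcard, hp.out.factorization_pow, Finsupp.single_eq_same]
  omega

end Invariant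

end Cfsg.Agent.Lib.BlkPSolvHt
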