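import Mathlib
import Cfsg.Agent.Lib.BlockCover
import Cfsg.Agent.Lib.BlockDefect
import Cfsg.Agent.Lib.BlockQ

/-!
# Knörr's theorem on defect groups of covering blocks

`N ⊴ G`, `b` a block of `N` with defect group `Q`, `B` a block of `G` covering `b`.  Then `B` has a
defect group `P` with `P ⊓ N = Q`.
-/

set_option autoImplicit false
set_option linter.unusedSectionVars false
set_option linter.unusedVariables false
set_option linter.style.haveILetI false

namespace Cfsg.Agent.Lib.BlockKnorr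

open Cfsg Cfsg.Agent.Lib.CharBasic Cfsg.Agent.Lib.CharInd Cfsg.Agent.Lib.CharIntegrality
open Cfsg.Agent.Lib.BlockLocal Cfsg.Agent.Lib.BlockIdem Cfsg.Agent.Lib.BlkBasic
open Cfsg.Agent.Lib.BrauerPair Cfsg.Agent.Lib.BlkNormalSub Cfsg.Agent.Lib.BlockDefect
open Cfsg.Agent.Lib.GroupAlgNil Cfsg.Agent.Lib.FongReynolds Cfsg.Agent.Lib.BlockCover
open Cfsg.Agent.Lib.BlockQ

universe u

section Orbit

variable {M : Ideal AlgInt} {p : ℕ}

/-- Sums over a set with a group action, all of whose relevant orbits have size divisible by `p ^ k`,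
are divisible by `p ^ k`. -/
theorem sum_eq_pow_mul_of_orbits {U : Type*} [Group U] [Finite U] {X : Type*} [Fintype X] [MulAction U X]
    (hM : M.IsPrime) (F : X → ℂ) (hinv : ∀ (u : U) (x : X), F (u • x) = F x)
    (hR : ∀ x, MemLocalRing M (F x)) (k : ℕ)
    (hk : ∀ x, F x ≠ 0 → p ^ k ∣ Nat.card (MulAction.orbit U x)) :
    ∃ r, MemLocalRing M r ∧ ∑ x, F x = (p : ℂ) ^ k * r := by
  classical
  haveI := hM
  letI : Fintype (MulAction.orbitRel.Quotient U X) := Fintype.ofFinite _
  have h1 : ∑ x, F x = ∑ ω : MulAction.orbitRel.Quotient U X,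
      ∑ x ∈ Finset.univ.filter (fun x => (Quotient.mk _ x : MulAction.orbitRel.Quotient U X) = ω), F x :=
    (Finset.sum_fiberwise _ _ _).symm
  rw [h1]
  refine Finset.sum_induction _ (fun z => ∃ r, MemLocalRing M r ∧ z = (p : ℂ) ^ k * r) ?_ ?_ ?_
  · rintro a b ⟨r, hr, rfl⟩ ⟨s, hs, rfl⟩
    exact ⟨r + s, memLocalRing_add hr hs, by ring⟩
  · exact ⟨0, memLocalRing_zero, by simp⟩
  intro ω _
  induction ω using Quotient.inductionOn with
  | h y =>
    have hmem : ∀ x, (Quotient.mk _ x : MulAction.orbitRel.Quotient U X) = Quotient.mk _ y ↔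
        x ∈ MulAction.orbit U y := by
      intro x
      rw [Quotient.eq]
      exact MulAction.orbitRel_apply
    have h2 : ∀ x ∈ Finset.univ.filter (fun x => (Quotient.mk _ x : MulAction.orbitRel.Quotient U X) =
        Quotient.mk _ y), F x = F y := by
      intro x hx
      simp only [Finset.mem_filter, Finset.mem_univ, true_and] at hx
      obtain ⟨u, rfl⟩ := (hmem x).mp hx
      exact hinv u y
    rw [Finset.sum_congr rfl h2, Finset.sum_const, nsmul_eq_mul]
    have h3 : (Finset.univ.filter (fun x => (Quotient.mk _ x : MulAction.orbitRel.Quotient U X) =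
        Quotient.mk _ y)).card = Nat.card (MulAction.orbit U y) := by
      rw [Nat.card_eq_fintype_card, Fintype.card_subtype]
      congr 1
      ext x
      simp only [Finset.mem_filter, Finset.mem_univ, true_and]
      exact hmem x
    rw [h3]
    by_cases hy : F y = 0
    · exact ⟨0, memLocalRing_zero, by simp [hy]⟩
    · obtain ⟨c, hc⟩ := hk y hy
      refine ⟨(c : ℂ) * F y, memLocalRing_mul (memLocalRing_natCast c) (hR y), ?_⟩
      rw [hc]
      push_cast
      ring

/-- Large stabilizers. -/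
theorem exists_stabilizer_large [hp : Fact p.Prime] {U : Type*} [Group U] [Finite U] {X : Type*} [Fintype X]
    [MulAction U X] (hM : M.IsPrime) {a : ℕ} (hU : Nat.card U = p ^ a) (F : X → ℂ)
    (hinv : ∀ (u : U) (x : X), F (u • x) = F x)
    (hR : ∀ x, MemLocalRing M (F x)) (k : ℕ)
    (hne : ¬ ∃ r, MemLocalRing M r ∧ ∑ x, F x = (p : ℂ) ^ k * r) :
    ∃ x, F x ≠ 0 ∧ p ^ (a + 1) ≤ p ^ k * Nat.card (MulAction.stabilizer U x) := by
  by_contra hcon
  push Not at hcon
  apply hne
  refine sum_eq_pow_mul_of_orbits hM F hinv hR k fun x hx => ?_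
  have h1 := hcon x hx
  have hpU : IsPGroup p U := IsPGroup.of_card hU
  obtain ⟨j, hj⟩ := hpU.card_orbit x
  have h2 : Nat.card (MulAction.orbit U x) * Nat.card (MulAction.stabilizer U x) = Nat.card U := by
    classical
    letI : Fintype U := Fintype.ofFinite U
    letI : Fintype (MulAction.stabilizer U x) := Fintype.ofFinite _
    simp only [Nat.card_eq_fintype_card]
    exact MulAction.card_orbit_mul_card_stabilizer_eq_card_group U x
  rw [hj]
  apply pow_dvd_pow
  by_contra hjk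
  push Not at hjk
  rw [hj, hU] at h2
  have hp1 : 0 < p := hp.out.pos
  have h3 : p ^ (j + 1) ≤ p ^ k := Nat.pow_le_pow_right hp1 hjk
  have h4 : p ^ (a + 1) = p ^ j * Nat.card (MulAction.stabilizer U x) * p := by
    rw [h2, pow_succ]
  have h5 : p ^ (j + 1) * Nat.card (MulAction.stabilizer U x) ≤ p ^ k * Nat.card (MulAction.stabilizer U x) :=
    Nat.mul_le_mul_right _ h3
  have h6 : p ^ (j + 1) * Nat.card (MulAction.stabilizer U x) = p ^ (a + 1) := by
    rw [h4, pow_succ]
    ring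
  omega

end Orbit

section PartI

variable {G : Type u} [Group G] [Fintype G] {N : Subgroup G} [hN : N.Normal] [Fintype N]
  {p : ℕ} {M : Ideal AlgInt}

/-- The decomposition along the blocks of `N`. -/
theorem exists_block_sum_not_mem [M.IsPrime] (f : G → ℂ) {g : G} (hg : ¬ MemLocalIdeal M (f g)) :
    ∃ F : BlockT M N, ¬ MemLocalIdeal M (∑ m : N, blockCoeff F.1 m * f ((m : G)⁻¹ * g)) := by
  by_contra hcon
  push Not at hcon
  apply hg
  have h1 : f g = ∑ F : BlockT M N, ∑ m : N, blockCoeff F.1 m * f ((m : G)⁻¹ * g) := by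
    rw [Finset.sum_comm]
    simp_rw [← Finset.sum_mul]
    have h2 : ∀ m : N, ∑ F : BlockT M N, blockCoeff F.1 m = delta m := by
      intro m
      rw [← Finset.sum_apply, sum_blockCoeff]
    simp_rw [h2]
    rw [delta_mul_sum (fun m : N => f ((m : G)⁻¹ * g))]
    simp
  rw [h1]
  exact memLocalIdeal_sum _ _ fun F _ => hcon F

/-- Fixed points of a `p`-subgroup acting on `N` by conjugation. -/
theorem exists_fixed_of_sum (hM : IsPModular p M) {U : Subgroup G} (hU : IsPGroup p U) (F : N → ℂ)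
    (hinv : ∀ u ∈ U, ∀ m : N, F ⟨u * m * u⁻¹, hN.conj_mem _ m.2 _⟩ = F m)
    (hR : ∀ m, MemLocalRing M (F m)) (hne : ¬ MemLocalIdeal M (∑ m, F m)) :
    ∃ m : N, (∀ u ∈ U, u * (m : G) * u⁻¹ = m) ∧ ¬ MemLocalIdeal M (F m) := by
  by_contra hcon
  push Not at hcon
  apply hne
  letI : MulAction U N :=
    { smul := fun u m => ⟨(u : G) * m * (u : G)⁻¹, hN.conj_mem _ m.2 _⟩
      one_smul := fun m => by
        apply Subtype.ext
        show ((1 : U) : G) * m * ((1 : U) : G)⁻¹ = m
        simp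
      mul_smul := fun a b m => by
        apply Subtype.ext
        show ((a * b : U) : G) * m * ((a * b : U) : G)⁻¹ = (a : G) * ((b : G) * m * (b : G)⁻¹) * (a : G)⁻¹
        simp only [Subgroup.coe_mul, mul_inv_rev]
        group }
  refine memLocalIdeal_sum_of_invariant hM hU F (fun u m => hinv u u.2 m) hR fun m hm => ?_
  refine hcon m fun u hu => ?_
  exact congrArg Subtype.val (hm ⟨u, hu⟩)

/-- Two blocks covered by the same block are conjugate. -/
theorem exists_conj_of_covered [M.IsPrime] {B : Set (IrrCharacter G)} (hB : IsPBlock M B)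
    {b S : Set (IrrCharacter N)} (hb : IsPBlock M b) (hS : IsPBlock M S)
    (hcov : ∃ χ ∈ B, ∃ θ ∈ b, classInner (fun n : N => (χ : G → ℂ) n) (θ : N → ℂ) ≠ 0)
    (hcovS : ∃ χ ∈ B, ∃ θ ∈ S, classInner (fun n : N => (χ : G → ℂ) n) (θ : N → ℂ) ≠ 0) :
    ∃ t : G, S = {θ | cjE N t θ ∈ b} := by
  obtain ⟨χ₀, hχ₀, θ₀, hθ₀, hc₀⟩ := hcov
  obtain ⟨χ, hχ, θ, hθ, hc⟩ := hcovS
  have h1 := memLocalIdeal_of_covers (M := M) hN (sameBlock_of_mem hB hχ₀ hχ) (sameBlock_refl _) hc₀
  obtain ⟨t, ht⟩ := mem_orbitSet_of_congr (M := M) hN (blockClosed_of_isPBlock hb) hθ₀ h1 hc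
  have ht' : cjE N t θ ∈ b := ht
  refine ⟨t, ?_⟩
  ext θ'
  constructor
  · intro hθ'
    have h2 : SameBlock M (θ : N → ℂ) (θ' : N → ℂ) := sameBlock_of_mem hS hθ hθ'
    exact blockClosed_of_isPBlock hb _ ht' _ (sameBlock_cjE N h2 t)
  · intro hθ'
    have h2 : SameBlock M (cjE N t θ : N → ℂ) (cjE N t θ' : N → ℂ) := sameBlock_of_mem hb ht' hθ'
    have h3 := sameBlock_cjE N h2 t⁻¹
    rw [cjE_inv_cjE, cjE_inv_cjE] at h3
    exact blockClosed_of_isPBlock hS _ hθ _ h3

/-- **First half**: a `p`-subgroup of `N` centralizing an element with unit `e_B` coefficient is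
conjugate into `Q`. -/
theorem exists_conj_le_defect (hM : IsPModular p M) [hp : Fact p.Prime] {B : Set (IrrCharacter G)}
    (hB : IsPBlock M B) {b : Set (IrrCharacter N)} (hb : IsPBlock M b)
    (hcov : ∃ χ ∈ B, ∃ θ ∈ b, classInner (fun n : N => (χ : G → ℂ) n) (θ : N → ℂ) ≠ 0)
    {Q : Subgroup G} (hQN : Q ≤ N) (hQ : IsDefectGroup p M b (Q.subgroupOf N))
    {g₀ : G} (hg₀ : ¬ MemLocalIdeal M (blockCoeff B g₀)) {U : Subgroup G} (hU : IsPGroup p U)
    (hUN : U ≤ N) (hUc : U ≤ Subgroup.centralizer ({g₀} : Set G)) :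
    ∃ t : G, U.map (MulAut.conj t).toMonoidHom ≤ Q := by
  classical
  haveI hMp : M.IsPrime := hM.2.1.isPrime
  have hclB := BlkBasic.blockCoeff_isClassFunction B
  obtain ⟨F, hF⟩ := exists_block_sum_not_mem (N := N) (blockCoeff B) hg₀
  -- fixed point
  obtain ⟨m, hmfix, hmne⟩ := exists_fixed_of_sum hM hU
    (fun m : N => blockCoeff F.1 m * blockCoeff B ((m : G)⁻¹ * g₀))
    (by
      intro u hu m
      simp only
      have hcomm : u * g₀ = g₀ * u := by
        have := hUc hu
        rw [Subgroup.mem_centralizer_singleton_iff] at this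
        exact this
      have h1 := BlkBasic.blockCoeff_isClassFunction F.1 m ⟨u, hUN hu⟩
      have h2 := hclB ((m : G)⁻¹ * g₀) u
      have e1 : (⟨u * m * u⁻¹, hN.conj_mem _ m.2 _⟩ : N) = ⟨u, hUN hu⟩ * m * (⟨u, hUN hu⟩ : N)⁻¹ := by
        apply Subtype.ext
        simp
      have e2 : ((⟨u * m * u⁻¹, hN.conj_mem _ m.2 _⟩ : N) : G)⁻¹ * g₀ = u * ((m : G)⁻¹ * g₀) * u⁻¹ := by
        simp only [mul_inv_rev, inv_inv, ← mul_assoc]
        calc u * (m : G)⁻¹ * u⁻¹ * g₀ = u * (m : G)⁻¹ * (u⁻¹ * g₀ * u) * u⁻¹ := by group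
          _ = u * (m : G)⁻¹ * (u⁻¹ * (u * g₀)) * u⁻¹ := by
              rw [show u⁻¹ * g₀ * u = u⁻¹ * (g₀ * u) by group, ← hcomm]
          _ = _ := by group
      rw [e2, h2, e1, h1])
    (fun m => memLocalRing_mul (memLocalRing_blockCoeff F.2 m) (memLocalRing_blockCoeff hB _)) hF
  have hmS : ¬ MemLocalIdeal M (blockCoeff F.1 m) := fun h =>
    hmne (memLocalIdeal_mul_right h (memLocalRing_blockCoeff hB _))
  -- `B` covers `F`
  have hcovS : ∃ χ ∈ B, ∃ θ ∈ F.1, classInner (fun n : N => (χ : G → ℂ) n) (θ : N → ℂ) ≠ 0 := by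
    by_contra hcon
    push Not at hcon
    apply hF
    have h0 : ∑ m : N, blockCoeff F.1 m * blockCoeff B ((m : G)⁻¹ * g₀) = 0 := by
      simp_rw [blockCoeff_apply B]
      simp_rw [Finset.mul_sum]
      rw [Finset.sum_comm]
      refine Finset.sum_eq_zero fun χ _ => ?_
      by_cases hχ : χ ∈ B
      · have h1 := sum_blockCoeff_char_mul_eq_zero N.subtype (IsIrrCharacter.isCharacter χ.2)
          (c := F.1) (fun θ hθ => hcon χ hχ θ hθ) g₀⁻¹
        have h2 : ∀ m : N, blockCoeff F.1 m * (blkInd B χ * ec (χ : G → ℂ) ((m : G)⁻¹ * g₀)) =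
            (blkInd B χ * ((χ : G → ℂ) 1 / (Nat.card G : ℂ))) *
              (blockCoeff F.1 m * (χ : G → ℂ) (g₀⁻¹ * N.subtype m)) := by
          intro m
          unfold ec
          have h3 : ((m : G)⁻¹ * g₀)⁻¹ = g₀⁻¹ * N.subtype m := by
            simp
          rw [h3]
          ring
        simp_rw [h2]
        rw [← Finset.mul_sum, h1, mul_zero]
      · simp [blkInd_of_not_mem hχ]
    rw [h0]
    exact memLocalIdeal_zero
  obtain ⟨t, ht⟩ := exists_conj_of_covered hB hb F.2 hcov hcovS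
  -- transfer to `b`
  set m' : N := ⟨t⁻¹ * m * t⁻¹⁻¹, hN.conj_mem _ m.2 _⟩ with hm'
  have hm'b : ¬ MemLocalIdeal M (blockCoeff b m') := by
    have h1 := blockCoeff_conj N b t⁻¹ m
    have h2 : {θ | cjE N t⁻¹⁻¹ θ ∈ b} = {θ | cjE N t θ ∈ b} := by rw [inv_inv]
    rw [h2, ← ht] at h1
    rw [hm', h1]
    exact hmS
  have hLe := IsDefectGroup.sylow_conj hM hb hQ hm'b
  -- the conjugate of `U`
  set U' : Subgroup G := U.map (MulAut.conj t⁻¹).toMonoidHom with hU'
  have hU'N : U' ≤ N := by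
    rintro _ ⟨u, hu, rfl⟩
    exact hN.conj_mem _ (hUN hu) _
  have hU'p : IsPGroup p (U'.subgroupOf N) :=
    (show IsPGroup p U' from hU.map _).comap_of_injective N.subtype N.subtype_injective
  have hU'c : U'.subgroupOf N ≤ Subgroup.centralizer ({m'} : Set N) := by
    intro x hx
    rw [Subgroup.mem_subgroupOf] at hx
    obtain ⟨u, hu, hux⟩ := hx
    rw [Subgroup.mem_centralizer_singleton_iff]
    apply Subtype.ext
    have hum := hmfix u hu
    have hcomm : u * (m : G) = m * u := by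
      calc u * (m : G) = (u * (m : G) * u⁻¹) * u := by group
        _ = m * u := by rw [hum]
    simp only [MulEquiv.coe_toMonoidHom, MulAut.conj_apply] at hux
    simp only [Subgroup.coe_mul, hm', ← hux, inv_inv]
    calc t⁻¹ * u * t * (t⁻¹ * (m : G) * t) = t⁻¹ * (u * (m : G)) * t := by group
      _ = t⁻¹ * ((m : G) * u) * t := by rw [hcomm]
      _ = _ := by group
  obtain ⟨c, hc⟩ := hLe _ hU'p hU'c
  refine ⟨(c : G) * t⁻¹, ?_⟩
  rintro _ ⟨u, hu, rfl⟩
  have hx : t⁻¹ * u * t⁻¹⁻¹ ∈ U' := ⟨u, hu, rfl⟩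
  have hxN : t⁻¹ * u * t⁻¹⁻¹ ∈ N := hU'N hx
  have h1 : (⟨t⁻¹ * u * t⁻¹⁻¹, hxN⟩ : N) ∈ U'.subgroupOf N := by
    rw [Subgroup.mem_subgroupOf]
    exact hx
  have h2 := hc (Subgroup.mem_map_of_mem _ h1)
  rw [Subgroup.mem_subgroupOf] at h2
  simp only [MulEquiv.coe_toMonoidHom, MulAut.conj_apply, Subgroup.coe_mul, InvMemClass.coe_inv] at h2 ⊢
  convert h2 using 1
  simp only [mul_inv_rev, inv_inv]
  group

end PartI

section PartII

variable {G : Type u} [Group G] [Fintype G] {N : Subgroup G} [hN : N.Normal] [Fintype N]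
  {p : ℕ} {M : Ideal AlgInt} [hMp : M.IsPrime]

variable {B : Set (IrrCharacter G)} (hB : IsPBlock M B) {b : Set (IrrCharacter N)} (hb : IsPBlock M b)

include hB hb in
/-- The element `c` of the centralizer of `N` with `ω_θ(π_N(e_B c)) ∉ 𝔪` for `θ ∈ b`. -/
theorem exists_coefficient
    (hcov : ∃ χ ∈ B, ∃ θ ∈ b, classInner (fun n : N => (χ : G → ℂ) n) (θ : N → ℂ) ≠ 0) :
    ∃ c : G → ℂ, (∀ g, MemLocalRing M (c g)) ∧ (∀ n ∈ N, ∀ g, c (n * g * n⁻¹) = c g) ∧
      ∀ θ ∈ b, ¬ MemLocalIdeal M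
        (omega (θ : N → ℂ) (fun n : N => ∑ g : G, blockCoeff B g * c (g⁻¹ * n))) := by
  classical
  obtain ⟨l, hl, hp, θ₁, hθ₁⟩ := exists_list_unit hB hb hcov
  have hθ₁b : θ₁ ∈ b := by
    by_contra h
    apply hθ₁
    have := omega_Pl_eq_zero hB hb hl hp h
    unfold resN at this
    rw [this]
    exact memLocalIdeal_zero
  have hcl := classFun_of_commN N (Pl_commN hB hb l)
  have hloc : ∀ n : N, MemLocalRing M (resN N (Pl (eBb hB hb) N l) n) := fun n => coeF_local _ _
  have hZ := mem_Zc_of_classFunction (M := M) hcl hloc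
  cases l with
  | nil => exact absurd rfl hl
  | cons x l' =>
    set c₀ := Pl (eBb hB hb) N l' with hc₀
    set y := aN hb * c₀ with hy
    have hyc : CommN N y := (aN_commN hb).mul N (Pl_commN hB hb l')
    refine ⟨coeF y, fun g => coeF_local y g, ?_, ?_⟩
    · intro n hn g
      have h1 := (commN_iff N).mp hyc n hn (n * g)
      have e1 : n⁻¹ * (n * g) = g := by group
      rw [e1] at h1
      simp only [coeF_apply]
      rw [h1]
    · have hdeg : IsHom N (x⁻¹ : G ⧸ N) c₀ := by
        have h2 := isHom_prod N (eBb hB hb) l'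
        have h3 : l'.prod = x⁻¹ := by
          rw [List.prod_cons] at hp
          exact eq_inv_of_mul_eq_one_right hp
        rwa [h3] at h2
      have hf : ∀ n : N, coeF (Pl (eBb hB hb) N (x :: l')) (n : G) =
          ∑ g : G, blockCoeff B g * coeF y (g⁻¹ * n) := by
        intro n
        have e0 : Pl (eBb hB hb) N (x :: l') = comp N x (eBb hB hb) * c₀ := by
          simp [Pl, hc₀]
        rw [e0, coeF_mul]
        have e1 : eBb hB hb * c₀ = aB hB * y := by
          unfold eBb
          rw [hy, mul_assoc]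
        have e2 : conv (coeF (eBb hB hb)) (coeF c₀) (n : G) = ∑ g : G, blockCoeff B g * coeF y (g⁻¹ * n) := by
          rw [← coeF_mul, e1, coeF_mul]
          rfl
        rw [← e2]
        unfold conv
        refine Finset.sum_congr rfl fun g _ => ?_
        by_cases hg : (g : G ⧸ N) = x
        · simp only [coeF_apply]
          rw [coeff_comp, if_pos hg]
        · have h3 : c₀.coeff (g⁻¹ * n) = 0 := by
            by_contra h4
            have h5 := hdeg _ h4
            apply hg
            have h6 : ((g⁻¹ * n : G) : G ⧸ N) = ((g : G ⧸ N))⁻¹ := by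
              rw [QuotientGroup.mk_mul, (QuotientGroup.eq_one_iff _).mpr n.2, mul_one]
              rfl
            rw [h6] at h5
            exact inv_injective h5
          simp only [coeF_apply]
          rw [h3]
          simp
      intro θ hθ
      have hS := sameBlock_of_mem hb hθ₁b hθ
      have h1 := memLocalIdeal_sub_of_mem_Zc hZ hS
      have h2 : (fun n : N => ∑ g : G, blockCoeff B g * coeF y (g⁻¹ * n)) =
          resN N (Pl (eBb hB hb) N (x :: l')) := by
        funext n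
        exact (hf n).symm
      rw [h2]
      intro h3
      apply hθ₁
      have h3' : MemLocalIdeal M (omega (θ : N → ℂ)
          (fun n : N => coeF (Pl (eBb hB hb) N (x :: l')) (n : G))) := h3
      have h4 := memLocalIdeal_add h1 h3'
      simpa using h4

/-- Class functions of `N` with values in the maximal ideal. -/
theorem memLocalIdeal_omega_of_values (θ : IrrCharacter N) {f : N → ℂ} (hf : IsClassFunction N f)
    (h : ∀ n, MemLocalIdeal M (f n)) : MemLocalIdeal M (omega (θ : N → ℂ) f) := by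
  classical
  letI : Fintype (ConjClasses N) := Fintype.ofFinite _
  rw [omega_eq_sum_classes θ hf]
  exact memLocalIdeal_sum _ _ fun K _ => memLocalIdeal_mul_right (h _)
    (memLocalRing_of_isIntegral (isIntegral_centralChar θ _))

omit hMp in
/-- Large stabilizers for the diagonal action on pairs. -/
theorem exists_pair_large (hMp : M.IsPrime) [hp : Fact p.Prime] {U : Type*} [Group U] [Finite U] (φ : U →* G)
    (hφ : ∀ u, φ u ∈ N) {a : ℕ} (hU : Nat.card U = p ^ a) (F : N × G → ℂ)
    (hinv : ∀ (u : U) (x : N × G),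
      F (⟨φ u * x.1 * (φ u)⁻¹, hN.conj_mem _ x.1.2 _⟩, φ u * x.2 * (φ u)⁻¹) = F x)
    (hR : ∀ x, MemLocalRing M (F x)) (k : ℕ)
    (hne : ¬ ∃ r, MemLocalRing M r ∧ ∑ x, F x = (p : ℂ) ^ k * r) :
    ∃ x : N × G, F x ≠ 0 ∧ ∃ V : Subgroup U, (∀ v ∈ V, φ v * x.2 = x.2 * φ v) ∧
      p ^ (a + 1) ≤ p ^ k * Nat.card V := by
  classical
  letI : MulAction U (N × G) :=
    { smul := fun u x => (⟨φ u * x.1 * (φ u)⁻¹, hN.conj_mem _ x.1.2 _⟩, φ u * x.2 * (φ u)⁻¹)
      one_smul := fun x => by
        apply Prod.ext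
        · apply Subtype.ext
          show φ 1 * (x.1 : G) * (φ 1)⁻¹ = x.1
          simp
        · show φ 1 * x.2 * (φ 1)⁻¹ = x.2
          simp
      mul_smul := fun a b x => by
        apply Prod.ext
        · apply Subtype.ext
          show φ (a * b) * (x.1 : G) * (φ (a * b))⁻¹ = φ a * (φ b * (x.1 : G) * (φ b)⁻¹) * (φ a)⁻¹
          rw [map_mul]
          group
        · show φ (a * b) * x.2 * (φ (a * b))⁻¹ = φ a * (φ b * x.2 * (φ b)⁻¹) * (φ a)⁻¹
          rw [map_mul]
          group }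
  obtain ⟨x, hx, hcard⟩ := exists_stabilizer_large hMp hU F hinv hR k hne
  refine ⟨x, hx, MulAction.stabilizer U x, fun v hv => ?_, hcard⟩
  have h1 : v • x = x := hv
  have h2 : φ v * x.2 * (φ v)⁻¹ = x.2 := congrArg Prod.snd h1
  calc φ v * x.2 = (φ v * x.2 * (φ v)⁻¹) * φ v := by group
    _ = x.2 * φ v := by rw [h2]

include hB hb in
/-- **Second half**: a large `p`-subgroup of `N` centralizing an element with unit coefficient. -/
theorem exists_large_centralizing (hM : IsPModular p M) [hp : Fact p.Prime]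
    (hcov : ∃ χ ∈ B, ∃ θ ∈ b, classInner (fun n : N => (χ : G → ℂ) n) (θ : N → ℂ) ≠ 0) :
    ∃ (V : Subgroup G) (g : G), V ≤ N ∧ IsPGroup p V ∧ V ≤ Subgroup.centralizer ({g} : Set G) ∧
      ¬ MemLocalIdeal M (blockCoeff B g) ∧ p ^ blockDefect p b ≤ Nat.card V := by
  classical
  obtain ⟨c, hcl, hcinv, hω⟩ := exists_coefficient hB hb hcov
  obtain ⟨θ, hθ, hθmin⟩ := exists_minExp (p := p) hb
  have hθω := hω θ hθ
  set m := minExp p b with hm
  set aa := blockCoeff B with haa
  have haacl : IsClassFunction G aa := BlkBasic.blockCoeff_isClassFunction B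
  -- the truncation
  set bB : G → ℂ := fun g => if MemLocalIdeal M (aa g) then 0 else aa g with hbB
  have hb1 : IsClassFunction G bB := by
    intro g h
    simp only [hbB, haacl g h]
  have hb2 : ∀ g, MemLocalIdeal M (aa g - bB g) := by
    intro g
    by_cases h : MemLocalIdeal M (aa g)
    · simp only [hbB, if_pos h, sub_zero]
      exact h
    · simp only [hbB, if_neg h, sub_self]
      exact memLocalIdeal_zero
  have hb3 : ∀ g, MemLocalRing M (bB g) := by
    intro g
    by_cases h : MemLocalIdeal M (aa g)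
    · simp only [hbB, if_pos h]
      exact memLocalRing_zero
    · simp only [hbB, if_neg h]
      exact memLocalRing_blockCoeff hB g
  -- class functions
  have hclN : ∀ w : G → ℂ, IsClassFunction G w →
      IsClassFunction N (fun n : N => ∑ g : G, w g * c (g⁻¹ * n)) := by
    intro w hw n y
    simp only
    refine Fintype.sum_equiv (MulAut.conj ((y : G))).symm.toEquiv _ _ fun g => ?_
    simp only [MulEquiv.toEquiv_eq_coe, EquivLike.coe_coe, MulAut.conj_symm_apply]
    have h1 := hw ((y : G)⁻¹ * g * y) y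
    have e1 : (y : G) * ((y : G)⁻¹ * g * y) * (y : G)⁻¹ = g := by group
    rw [e1] at h1
    rw [← h1]
    congr 1
    have h2 := hcinv y y.2 (((y : G)⁻¹ * g * y)⁻¹ * n)
    rw [← h2]
    congr 1
    simp only [Subgroup.coe_mul, InvMemClass.coe_inv]
    group
  have hdiff : MemLocalIdeal M (omega (θ : N → ℂ) (fun n : N => ∑ g : G, aa g * c (g⁻¹ * n)) -
      omega (θ : N → ℂ) (fun n : N => ∑ g : G, bB g * c (g⁻¹ * n))) := by
    have e1 : omega (θ : N → ℂ) (fun n : N => ∑ g : G, aa g * c (g⁻¹ * n)) -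
      omega (θ : N → ℂ) (fun n : N => ∑ g : G, bB g * c (g⁻¹ * n)) =
        omega (θ : N → ℂ) (fun n : N => ∑ g : G, (aa g - bB g) * c (g⁻¹ * n)) := by
      unfold omega
      rw [← sub_div, ← Finset.sum_sub_distrib]
      congr 1
      refine Finset.sum_congr rfl fun n _ => ?_
      rw [← sub_mul, ← Finset.sum_sub_distrib]
      congr 1
      refine Finset.sum_congr rfl fun g _ => ?_
      ring
    rw [e1]
    refine memLocalIdeal_omega_of_values θ (hclN _ ?_) fun n => ?_
    · intro g h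
      simp only
      rw [haacl g h, hb1 g h]
    · exact memLocalIdeal_sum _ _ fun g _ => memLocalIdeal_mul_right (hb2 g) (hcl _)
  have hθω' : ¬ MemLocalIdeal M (omega (θ : N → ℂ) (fun n : N => ∑ g : G, bB g * c (g⁻¹ * n))) :=
    fun h => hθω (by simpa using memLocalIdeal_add hdiff h)
  -- the Sylow subgroup
  obtain ⟨A⟩ : Nonempty (Sylow p N) := inferInstance
  have hAcard : Nat.card A = p ^ (Nat.card N).factorization p := Sylow.card_eq_multiplicity A
  set φ : (A : Subgroup N) →* G := N.subtype.comp (A : Subgroup N).subtype with hφ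
  have hθc := isClassFunction_of_isCharacter (IsIrrCharacter.isCharacter θ.2)
  set F : N × G → ℂ := fun x => bB x.2 * c (x.2⁻¹ * x.1) * (θ : N → ℂ) x.1 with hF
  have hFsum : ∑ x, F x = (θ : N → ℂ) 1 * omega (θ : N → ℂ) (fun n : N => ∑ g : G, bB g * c (g⁻¹ * n)) := by
    unfold omega
    rw [mul_div_cancel₀ _ (irr_one_ne_zero' θ.2), Fintype.sum_prod_type]
    refine Finset.sum_congr rfl fun n _ => ?_
    rw [Finset.sum_mul]
  have hdeg : (θ : N → ℂ) 1 = (charDegree (θ : N → ℂ) : ℂ) :=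
    Cfsg.Agent.Lib.CharKernel.one_eq_charDegree (IsIrrCharacter.isCharacter θ.2)
  obtain ⟨x, hx, V, hVc, hVcard⟩ := exists_pair_large (N := N) hMp φ (fun u => (u : N).2)
    hAcard F
    (by
      intro u x
      simp only [hF]
      have h1 := hb1 x.2 (φ u)
      have h2 := hcinv (φ u) (hφ ▸ (u : N).2) (x.2⁻¹ * x.1)
      have h3 := hθc x.1 (u : N)
      have e3 : (⟨φ u * (x.1 : G) * (φ u)⁻¹, hN.conj_mem _ x.1.2 _⟩ : N) = (u : N) * x.1 * (u : N)⁻¹ := by
        apply Subtype.ext
        simp [hφ]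
      have e2 : (φ u * x.2 * (φ u)⁻¹)⁻¹ * (φ u * (x.1 : G) * (φ u)⁻¹) =
          φ u * (x.2⁻¹ * x.1) * (φ u)⁻¹ := by group
      rw [h1, e2, h2, e3, h3])
    (fun x => memLocalRing_mul (memLocalRing_mul (hb3 _) (hcl _))
      (memLocalRing_of_isIntegral (Cfsg.Agent.Lib.BlockVal.isIntegral_char (IsIrrCharacter.isCharacter θ.2) _)))
    (m + 1)
    (by
      rintro ⟨r, hr, hsum⟩
      apply hθω'
      have hd0 : charDegree (θ : N → ℂ) ≠ 0 := Cfsg.Agent.Lib.CharKernel.charDegree_ne_zero θ.2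
      have hd1' := Nat.ordProj_mul_ordCompl_eq_self (charDegree (θ : N → ℂ)) p
      have hu1' := Nat.not_dvd_ordCompl hp.out hd0
      rw [hθmin] at hd1' hu1'
      set u := charDegree (θ : N → ℂ) / p ^ m with hu
      have hu1 : ¬ p ∣ u := hu1'
      have hd1 : charDegree (θ : N → ℂ) = p ^ m * u := hd1'.symm
      have hu0 : (u : ℂ) ≠ 0 := by
        have : u ≠ 0 := fun h => hu1 (by rw [h]; exact dvd_zero _)
        exact_mod_cast this
      have hp0 : (p : ℂ) ≠ 0 := by exact_mod_cast hp.out.ne_zero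
      rw [hFsum, hdeg, hd1] at hsum
      push_cast at hsum
      have h5 : omega (θ : N → ℂ) (fun n : N => ∑ g : G, bB g * c (g⁻¹ * n)) =
          (p : ℂ) * (r * (u : ℂ)⁻¹) := by
        have hpm : (p : ℂ) ^ m ≠ 0 := pow_ne_zero _ hp0
        field_simp
        have h6 : (p : ℂ) ^ m * ((u : ℂ) * omega (θ : N → ℂ) (fun n : N => ∑ g : G, bB g * c (g⁻¹ * n))) =
            (p : ℂ) ^ m * ((p : ℂ) * r) := by
          rw [pow_succ] at hsum
          linear_combination hsum
        have := mul_left_cancel₀ hpm h6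
        linear_combination this
      rw [h5]
      exact memLocalIdeal_mul_right (memLocalIdeal_natCast_of_dvd hM dvd_rfl)
        (memLocalRing_mul hr (memLocalRing_inv_natCast hM hu1)))
  have hφinj : Function.Injective φ := N.subtype_injective.comp (A : Subgroup N).subtype_injective
  have hpA : IsPGroup p (A : Subgroup N) := A.isPGroup'
  refine ⟨V.map φ, x.2, ?_, (hpA.to_subgroup V).map φ, ?_, ?_, ?_⟩
  · rintro _ ⟨v, _, rfl⟩
    exact (v : N).2
  · rintro _ ⟨v, hv, rfl⟩
    rw [Subgroup.mem_centralizer_singleton_iff]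
    exact hVc v hv
  · intro hmem
    apply hx
    simp only [hF, hbB, if_pos hmem, zero_mul]
  · rw [Subgroup.card_map_of_injective hφinj]
    have h1 := card_factorization_eq (p := p) hb
    rw [h1] at hVcard
    have h2 : p ^ (blockDefect p b + m + 1) = p ^ (m + 1) * p ^ blockDefect p b := by
      ring
    rw [h2] at hVcard
    exact Nat.le_of_mul_le_mul_left hVcard (pow_pos hp.out.pos _)

end PartII

section Main

variable {G : Type u} [Group G] [Fintype G] {N : Subgroup G} [hN : N.Normal] [Fintype N]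
  {p : ℕ} {M : Ideal AlgInt}

/-- **Knörr's theorem.** -/
theorem exists_defect_inf_eq (hM : IsPModular p M) [hp : Fact p.Prime] {b : Set (IrrCharacter N)}
    (hb : IsPBlock M b) {Q : Subgroup G} (hQN : Q ≤ N) (hQ : IsDefectGroup p M b (Q.subgroupOf N))
    {B : Set (IrrCharacter G)} (hB : IsPBlock M B)
    (hcov : ∃ χ ∈ B, ∃ θ ∈ b, classInner (fun n : N => (χ : G → ℂ) n) (θ : N → ℂ) ≠ 0) :
    ∃ P : Subgroup G, IsDefectGroup p M B P ∧ P ⊓ N = Q := by
  classical
  haveI hMp : M.IsPrime := hM.2.1.isPrime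
  obtain ⟨D, hD⟩ := exists_isDefectGroup hM hB
  obtain ⟨g₀, hg₀, hle, hc⟩ := isDefectGroup_iff.mp hD
  have hDp : IsPGroup p D := isPGroup_of_card hc
  set U := D ⊓ N with hU
  have hUp : IsPGroup p U := hDp.to_le inf_le_left
  obtain ⟨t, ht⟩ := exists_conj_le_defect hM hB hb hcov hQN hQ hg₀.2.1 hUp inf_le_right
    (inf_le_left.trans hle)
  obtain ⟨V, g, hVN, hVp, hVc, hg, hVcard⟩ := exists_large_centralizing hB hb hM hcov
  obtain ⟨s, hs⟩ := IsDefectGroup.sylow_conj hM hB hD hg V hVp hVc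
  have hVU : V.map (MulAut.conj s).toMonoidHom ≤ U := by
    refine le_inf hs ?_
    rintro _ ⟨v, hv, rfl⟩
    exact hN.conj_mem _ (hVN hv) _
  have hcQ : Nat.card Q = p ^ blockDefect p b := by
    rw [← card_isDefectGroup hM hb hQ]
    exact Nat.card_congr (Subgroup.subgroupOfEquivOfLe hQN).toEquiv.symm
  have hcU : Nat.card Q ≤ Nat.card U := by
    rw [hcQ]
    refine hVcard.trans ?_
    rw [← Subgroup.card_map_of_injective (f := (MulAut.conj s).toMonoidHom) (MulAut.conj s).injective]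
    exact Subgroup.card_le_of_le hVU
  have hEq : U.map (MulAut.conj t).toMonoidHom = Q := by
    apply Subgroup.eq_of_le_of_card_ge ht
    rw [Subgroup.card_map_of_injective (MulAut.conj t).injective]
    exact hcU
  refine ⟨D.map (MulAut.conj t).toMonoidHom, IsDefectGroup.conj hD t, ?_⟩
  rw [← hEq, hU, Subgroup.map_inf _ _ _ (MulAut.conj t).injective]
  congr 1
  apply le_antisymm
  · intro x hx
    refine ⟨t⁻¹ * x * t⁻¹⁻¹, hN.conj_mem _ hx _, ?_⟩
    simp only [MulEquiv.coe_toMonoidHom, MulAut.conj_apply]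
    group
  · rintro _ ⟨v, hv, rfl⟩
    exact hN.conj_mem _ hv _

end Main

end Cfsg.Agent.Lib.BlockKnorr
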