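import Mathlib
import Cfsg.Agent.Lib.BlkQuot
import Cfsg.Agent.Lib.BlockDefect
import Cfsg.Agent.Lib.BlkCount
import Cfsg.Agent.Lib.BlkDefect

/-!
# Defect groups of blocks of quotient groups
-/

set_option autoImplicit false
set_option linter.unusedSectionVars false
set_option linter.unusedVariables false
set_option linter.style.haveILetI false

namespace Cfsg.Agent.Lib.BlockQuotDefect

open Cfsg Cfsg.Agent.Lib.CharBasic Cfsg.Agent.Lib.CharInd Cfsg.Agent.Lib.CharIntegrality
open Cfsg.Agent.Lib.BlockLocal Cfsg.Agent.Lib.BlockIdem Cfsg.Agent.Lib.BlkBasic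
open Cfsg.Agent.Lib.BlockDefect Cfsg.Agent.Lib.BlkQuot Cfsg.Agent.Lib.BlkNormalSub

universe u

variable {G : Type u} [Group G] {p : ℕ} {M : Ideal AlgInt}

/-- Sylow control through a subgroup of index prime to `p`. -/
theorem exists_conj_le_of_relIndex [Finite G] [hp : Fact p.Prime] {C L W S : Subgroup G} (hCL : C ≤ L)
    (hidx : ¬ p ∣ C.relIndex L) (hSC : S ≤ C) (hS : Nat.card S = p ^ (Nat.card C).factorization p)
    (hWL : W ≤ L) (hW : IsPGroup p W) : ∃ t : G, W.map (MulAut.conj t).toMonoidHom ≤ S := by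
  classical
  have hcard : Nat.card L = Nat.card C * C.relIndex L := by
    have h1 := Subgroup.card_mul_index (C.subgroupOf L)
    rw [Nat.card_congr (Subgroup.subgroupOfEquivOfLe hCL).toEquiv] at h1
    exact h1.symm
  have hfac : (Nat.card L).factorization p = (Nat.card C).factorization p := by
    have hne : C.relIndex L ≠ 0 := fun h => hidx (by rw [h]; exact dvd_zero p)
    rw [hcard, Nat.factorization_mul Nat.card_pos.ne' hne]
    simp [Nat.factorization_eq_zero_of_not_dvd hidx]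
  let S₁ : Sylow p L := Sylow.ofCard (S.subgroupOf L) (by
    rw [Nat.card_congr (Subgroup.subgroupOfEquivOfLe (hSC.trans hCL)).toEquiv, hS, hfac])
  have hU' : IsPGroup p (W.subgroupOf L) := IsPGroup.comap_of_injective hW L.subtype Subtype.val_injective
  obtain ⟨Q, hQ⟩ := hU'.exists_le_sylow
  obtain ⟨c, hc⟩ := MulAction.exists_smul_eq L Q S₁
  refine ⟨(c : G), ?_⟩
  rintro _ ⟨u, hu, rfl⟩
  have hu2 : (⟨u, hWL hu⟩ : L) ∈ (Q : Subgroup L) := hQ (by
    rw [Subgroup.mem_subgroupOf]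
    exact hu)
  have h3 : c * (⟨u, hWL hu⟩ : L) * c⁻¹ ∈ (S₁ : Subgroup L) := by
    rw [← hc]
    rw [Sylow.coe_subgroup_smul]
    have := Subgroup.smul_mem_pointwise_smul _ (MulAut.conj c) _ hu2
    simpa [MulAut.smul_def, MulAut.conj_apply] using this
  have h4 : ((c * (⟨u, hWL hu⟩ : L) * c⁻¹ : L) : G) ∈ S := by
    have : c * (⟨u, hWL hu⟩ : L) * c⁻¹ ∈ S.subgroupOf L := h3
    exact this
  simpa [MulAut.conj_apply] using h4

section Quot

variable (N : Subgroup G) [N.Normal]

/-- `LeDefect` passes to the quotient when the relative index is prime to `p`. -/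
theorem leDefect_quot [Fintype G] [Fintype (G ⧸ N)] [hp : Fact p.Prime] {y : G} {D : Subgroup G}
    (hidx : ¬ p ∣ (Subgroup.centralizer ({y} : Set G)).relIndex
      ((Subgroup.centralizer ({(y : G ⧸ N)} : Set (G ⧸ N))).comap (QuotientGroup.mk' N)))
    (hD : LeDefect p y D) : LeDefect p (y : G ⧸ N) (D.map (QuotientGroup.mk' N)) := by
  classical
  intro Ubar hUp hle
  set L := (Subgroup.centralizer ({(y : G ⧸ N)} : Set (G ⧸ N))).comap (QuotientGroup.mk' N) with hL
  have hCL : Subgroup.centralizer ({y} : Set G) ≤ L := by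
    intro x hx
    rw [hL, Subgroup.mem_comap, Subgroup.mem_centralizer_singleton_iff]
    rw [Subgroup.mem_centralizer_singleton_iff] at hx
    have := congrArg (QuotientGroup.mk' N) hx
    simpa using this
  set Ut := Ubar.comap (QuotientGroup.mk' N) with hUt
  -- a `p`-subgroup mapping onto `Ubar`
  obtain ⟨W₀⟩ : Nonempty (Sylow p Ut) := inferInstance
  have hsurj : Function.Surjective ((QuotientGroup.mk' N).comp Ut.subtype |>.codRestrict Ubar
      (fun x => x.2)) := by
    rintro ⟨u, hu⟩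
    obtain ⟨g, rfl⟩ := QuotientGroup.mk_surjective u
    exact ⟨⟨g, hu⟩, rfl⟩
  set W := (W₀ : Subgroup Ut).map Ut.subtype with hW
  have hWp : IsPGroup p W := W₀.isPGroup'.map _
  have hWUt : W ≤ Ut := Subgroup.map_subtype_le _
  have hWL : W ≤ L := by
    intro x hx
    have h1 := hWUt hx
    exact hle h1
  have himage : Ubar ≤ W.map (QuotientGroup.mk' N) := by
    intro u hu
    have h1 := (W₀.mapSurjective hsurj).is_maximal' (Q := ⊤) (hUp.to_subgroup ⊤) le_top
    have h2 : (⟨u, hu⟩ : Ubar) ∈ ((W₀.mapSurjective hsurj : Sylow p Ubar) : Subgroup Ubar) := by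
      rw [← h1]
      trivial
    rw [Sylow.coe_mapSurjective] at h2
    obtain ⟨w, hw, hwu⟩ := h2
    refine ⟨(w : G), ⟨w, hw, rfl⟩, ?_⟩
    exact congrArg Subtype.val hwu
  obtain ⟨S⟩ : Nonempty (Sylow p (Subgroup.centralizer ({y} : Set G))) := inferInstance
  obtain ⟨l, hl⟩ := exists_conj_le_of_relIndex (S := (S : Subgroup (Subgroup.centralizer ({y} : Set G))).map (Subgroup.centralizer ({y} : Set G)).subtype) hCL hidx
    (Subgroup.map_subtype_le _) (by
      rw [Subgroup.card_map_of_injective Subtype.val_injective]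
      exact Sylow.card_eq_multiplicity S) hWL hWp
  obtain ⟨t, ht⟩ := hD _ (S.isPGroup'.map _) (Subgroup.map_subtype_le _)
  refine ⟨((t * l : G) : G ⧸ N), ?_⟩
  rintro _ ⟨u, hu, rfl⟩
  obtain ⟨w, hw, rfl⟩ := himage hu
  have h1 : l * w * l⁻¹ ∈ _ := hl ⟨w, hw, rfl⟩
  have h2 := ht ⟨_, h1, rfl⟩
  refine ⟨_, h2, ?_⟩
  simp [MulAut.conj_apply]

/-- The central character data of a unit central character of an inflation. -/
theorem not_dvd_of_infl [Fintype G] [Fintype (G ⧸ N)] (hM : IsPModular p M) (χ : IrrCharacter (G ⧸ N)) {y : G}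
    (h : ¬ MemLocalIdeal M (centralChar (infl N χ : G → ℂ) y)) :
    ¬ p ∣ (Subgroup.centralizer ({y} : Set G)).relIndex
      ((Subgroup.centralizer ({(y : G ⧸ N)} : Set (G ⧸ N))).comap (QuotientGroup.mk' N)) ∧
      ¬ MemLocalIdeal M (centralChar (χ : G ⧸ N → ℂ) (y : G ⧸ N)) := by
  haveI := hM.2.1.isPrime
  rw [centralChar_infl] at h
  have hR : MemLocalRing M (centralChar (χ : G ⧸ N → ℂ) (y : G ⧸ N)) :=
    memLocalRing_of_isIntegral (isIntegral_centralChar χ _)
  constructor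
  · intro hd
    exact h (memLocalIdeal_mul_right (memLocalIdeal_natCast_of_dvd hM hd) hR)
  · intro h2
    exact h (memLocalIdeal_mul_left (memLocalRing_natCast _) h2)

/-- A member of a block has a class with unit idempotent coefficient and unit central character. -/
theorem exists_coeff_central [Fintype G] [M.IsPrime] {B : Set (IrrCharacter G)} (hB : IsPBlock M B)
    {χ : IrrCharacter G} (hχ : χ ∈ B) :
    ∃ y : G, ¬ MemLocalIdeal M (blockCoeff B y) ∧ ¬ MemLocalIdeal M (centralChar (χ : G → ℂ) y) := by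
  classical
  letI : Fintype (ConjClasses G) := Fintype.ofFinite _
  have h1 := omega_eq_sum_classes χ (BlkBasic.blockCoeff_isClassFunction B)
  rw [BlkBasic.omega_blockCoeff, blkInd_of_mem hχ] at h1
  by_contra hcon
  push Not at hcon
  apply not_memLocalIdeal_one (M := M)
  rw [h1]
  refine memLocalIdeal_sum _ _ fun K _ => ?_
  by_cases h2 : MemLocalIdeal M (blockCoeff B (Quotient.out K))
  · exact memLocalIdeal_mul_right h2 (memLocalRing_of_isIntegral (isIntegral_centralChar χ _))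
  · exact memLocalIdeal_mul_left (memLocalRing_blockCoeff hB _) (hcon _ h2)

/-- **Main lemma**: the defect groups of a block of the quotient lie in the image of the defect groups. -/
theorem exists_conj_le_map [Fintype G] [Fintype (G ⧸ N)] [hp : Fact p.Prime] (hM : IsPModular p M)
    {Bbar : Set (IrrCharacter (G ⧸ N))} (hBbar : IsPBlock M Bbar) {B : Set (IrrCharacter G)}
    (hB : IsPBlock M B)
    (hsub : ∀ χ ∈ Bbar, ∀ ψ : IrrCharacter G, (ψ : G → ℂ) = (χ : G ⧸ N → ℂ) ∘ QuotientGroup.mk → ψ ∈ B)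
    {Dbar : Subgroup (G ⧸ N)} (hDbar : IsDefectGroup p M Bbar Dbar) {D : Subgroup G}
    (hD : IsDefectGroup p M B D) :
    ∃ t : G ⧸ N, Dbar.map (MulAut.conj t).toMonoidHom ≤ D.map (QuotientGroup.mk' N) := by
  classical
  haveI := hM.2.1.isPrime
  obtain ⟨χ, hχB⟩ := id hBbar
  have hχ : χ ∈ Bbar := by
    rw [hχB]
    exact mem_blockOf_self χ
  have hψ : infl N χ ∈ B := hsub χ hχ _ rfl
  obtain ⟨y, hy1, hy2⟩ := exists_coeff_central hB hψ
  obtain ⟨h3, h4⟩ := not_dvd_of_infl N hM χ hy2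
  have hLe := IsDefectGroup.sylow_conj hM hB hD hy1
  exact IsDefectGroup.exists_conj_le hM hBbar hDbar hχ h4 (leDefect_quot N h3 hLe)

/-- The image of a conjugate. -/
theorem map_mk_conj (D : Subgroup G) (t : G) :
    (D.map (MulAut.conj t).toMonoidHom).map (QuotientGroup.mk' N) =
      (D.map (QuotientGroup.mk' N)).map (MulAut.conj (t : G ⧸ N)).toMonoidHom := by
  rw [Subgroup.map_map, Subgroup.map_map]
  congr 1

/-- The function on the quotient obtained by summing over cosets. -/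
noncomputable def pushF [Fintype N] (f : G → ℂ) : G ⧸ N → ℂ :=
  fun q => ∑ n : N, f (Quotient.out q * n)

theorem pushF_mk [Fintype N] (f : G → ℂ) (x : G) : pushF N f (x : G ⧸ N) = ∑ n : N, f (x * n) := by
  unfold pushF
  have h1 : x⁻¹ * Quotient.out (x : G ⧸ N) ∈ N := by
    rw [← QuotientGroup.eq, QuotientGroup.out_eq']
  refine Fintype.sum_equiv (Equiv.mulLeft (⟨x⁻¹ * Quotient.out (x : G ⧸ N), h1⟩ : N)) _ _ fun n => ?_
  congr 1
  simp [mul_assoc]

theorem pushF_isClassFunction [Fintype N] {f : G → ℂ} (hf : IsClassFunction G f) :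
    IsClassFunction (G ⧸ N) (pushF N f) := by
  intro q c
  obtain ⟨x, rfl⟩ := QuotientGroup.mk_surjective q
  obtain ⟨t, rfl⟩ := QuotientGroup.mk_surjective c
  have e : (t : G ⧸ N) * (x : G ⧸ N) * (t : G ⧸ N)⁻¹ = ((t * x * t⁻¹ : G) : G ⧸ N) := rfl
  rw [e, pushF_mk, pushF_mk]
  have hn : ∀ n : N, t * (n : G) * t⁻¹ ∈ N := fun n => (inferInstance : N.Normal).conj_mem _ n.2 _
  let σ : N ≃ N :=
    { toFun := fun n => ⟨t * n * t⁻¹, hn n⟩
      invFun := fun n => ⟨t⁻¹ * n * t⁻¹⁻¹, (inferInstance : N.Normal).conj_mem _ n.2 _⟩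
      left_inv := fun n => by
        apply Subtype.ext
        simp [mul_assoc]
      right_inv := fun n => by
        apply Subtype.ext
        simp [mul_assoc] }
  refine (Fintype.sum_equiv σ _ _ fun n => ?_).symm
  have e2 : t * x * t⁻¹ * ((σ n : N) : G) = t * (x * n) * t⁻¹ := by
    show t * x * t⁻¹ * (t * n * t⁻¹) = _
    group
  rw [e2, hf (x * n) t]

theorem omega_pushF [Fintype G] [Fintype N] [Fintype (G ⧸ N)] (f : G → ℂ) (χ : IrrCharacter (G ⧸ N)) :
    omega (χ : G ⧸ N → ℂ) (pushF N f) = omega (infl N χ : G → ℂ) f := by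
  classical
  unfold omega
  have h1 : (infl N χ : G → ℂ) 1 = (χ : G ⧸ N → ℂ) 1 := rfl
  rw [h1]
  congr 1
  rw [← Finset.sum_fiberwise (s := Finset.univ) (g := fun x : G => (x : G ⧸ N))
    (f := fun x => f x * (infl N χ : G → ℂ) x)]
  refine Finset.sum_congr rfl fun q _ => ?_
  obtain ⟨x, rfl⟩ := QuotientGroup.mk_surjective q
  rw [pushF_mk, Finset.sum_mul]
  refine Finset.sum_bij (fun n _ => x * (n : G)) ?_ ?_ ?_ ?_
  · intro n _
    simp
  · intro a _ b _ h
    exact Subtype.ext (mul_left_cancel h)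
  · intro y hy
    have hy' : (y : G ⧸ N) = (x : G ⧸ N) := by simpa using hy
    refine ⟨⟨x⁻¹ * y, ?_⟩, Finset.mem_univ _, by simp⟩
    rw [← QuotientGroup.eq]
    exact hy'.symm
  · intro n _
    have e : ((x * (n : G) : G) : G ⧸ N) = (x : G ⧸ N) := QuotientGroup.mk_mul_of_mem x n.2
    simp only [infl_apply, e]

/-- The image of the idempotent of `B` in the quotient is the idempotent of the preimage of `B`. -/
theorem pushF_blockCoeff [Fintype G] [Fintype N] [Fintype (G ⧸ N)] (B : Set (IrrCharacter G)) :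
    pushF N (blockCoeff B) = blockCoeff {χ : IrrCharacter (G ⧸ N) | infl N χ ∈ B} := by
  apply classFunction_eq_of_omega (pushF_isClassFunction N (BlkBasic.blockCoeff_isClassFunction B))
    (BlkBasic.blockCoeff_isClassFunction _)
  intro χ
  rw [omega_pushF, BlkBasic.omega_blockCoeff, BlkBasic.omega_blockCoeff]
  by_cases h : infl N χ ∈ B
  · rw [blkInd_of_mem h, blkInd_of_mem (show χ ∈ {χ : IrrCharacter (G ⧸ N) | infl N χ ∈ B} from h)]
  · rw [blkInd_of_not_mem h,
      blkInd_of_not_mem (show χ ∉ {χ : IrrCharacter (G ⧸ N) | infl N χ ∈ B} from h)]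

/-- Preimages of blocks are unions of blocks. -/
theorem blockClosed_preimage [Fintype G] [M.IsPrime] {B : Set (IrrCharacter G)} (hB : IsPBlock M B) :
    BlockClosed M {χ : IrrCharacter (G ⧸ N) | infl N χ ∈ B} := by
  intro χ hχ ψ h
  refine blockClosed_of_isPBlock hB _ hχ _ ?_
  intro g
  rw [centralChar_infl, centralChar_infl, ← mul_sub]
  exact memLocalIdeal_mul_left (memLocalRing_natCast _) (h _)

/-- Uniqueness of defect groups up to conjugacy. -/
theorem IsDefectGroup_exists_conj_eq {X : Type*} [Group X] [Fintype X] [Fact p.Prime] (hM : IsPModular p M)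
    {B : Set (IrrCharacter X)} (hB : IsPBlock M B) {D D' : Subgroup X} (hD : IsDefectGroup p M B D)
    (hD' : IsDefectGroup p M B D') : ∃ t : X, D.map (MulAut.conj t).toMonoidHom = D' := by
  haveI := hM.2.1.isPrime
  obtain ⟨g, hg, hle, hc⟩ := isDefectGroup_iff.mp hD'
  obtain ⟨χ, hχB⟩ := id hB
  have hχ : χ ∈ B := by
    rw [hχB]
    exact mem_blockOf_self χ
  obtain ⟨t, ht⟩ := IsDefectGroup.exists_conj_le hM hB hD hχ (hg.2.2 χ hχ)
    (leDefect_of_isDefectGroup_data hle hc)
  refine ⟨t, Subgroup.eq_of_le_of_card_ge ht ?_⟩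
  rw [Subgroup.card_map_of_injective (MulAut.conj t).injective, card_isDefectGroup hM hB hD,
    card_isDefectGroup hM hB hD']

/-- **Existence of the block of the quotient**. -/
theorem exists_block_quot [Fintype G] [Fintype N] [Fintype (G ⧸ N)] [hp : Fact p.Prime] (hM : IsPModular p M)
    (hN : IsPGroup p N) {B : Set (IrrCharacter G)} (hB : IsPBlock M B) :
    ∃ Bbar : Set (IrrCharacter (G ⧸ N)), IsPBlock M Bbar ∧
      (∀ χ ∈ Bbar, infl N χ ∈ B) ∧
      ∀ Dbar : Subgroup (G ⧸ N), IsDefectGroup p M Bbar Dbar ↔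
        ∃ P : Subgroup G, IsDefectGroup p M B P ∧ Dbar = P.map (QuotientGroup.mk' N) := by
  classical
  haveI := hM.2.1.isPrime
  obtain ⟨g, hg⟩ := BlockDefect.exists_isDefectClass hM hB
  have hreg : ¬ p ∣ orderOf g := Cfsg.Agent.Lib.BlkDefect.regular_of_isDefectClass hM hB hg
  have hgC : g ∈ Subgroup.centralizer (N : Set G) := by
    by_contra h
    apply hg.2.1
    rw [BlockNormal.blockCoeff_eq_zero_of_not_mem_centralizer N hN hM B hB g h]
    exact memLocalIdeal_zero
  have hregn : ∀ n : N, n ≠ 1 → p ∣ orderOf (g * (n : G)) := by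
    intro n hn
    have hcomm : Commute g (n : G) := ((Subgroup.mem_centralizer_iff.mp hgC) n n.2).symm
    obtain ⟨k, hk⟩ := IsPGroup.iff_orderOf.mp hN n
    have hk0 : k ≠ 0 := by
      rintro rfl
      apply hn
      rw [pow_zero] at hk
      exact orderOf_eq_one_iff.mp hk
    have hk' : orderOf (n : G) = p ^ k := by
      rw [Subgroup.orderOf_coe]
      exact hk
    have hcop : (orderOf g).Coprime (orderOf (n : G)) := by
      rw [hk']
      exact (Nat.Coprime.pow_left _ ((Nat.Prime.coprime_iff_not_dvd hp.out).mpr hreg)).symm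
    rw [hcomm.orderOf_mul_eq_mul_orderOf_of_coprime hcop, hk']
    exact Dvd.dvd.mul_left (dvd_pow_self p hk0) _
  set S : Set (IrrCharacter (G ⧸ N)) := {χ | infl N χ ∈ B} with hS
  have h1 : blockCoeff S (g : G ⧸ N) = blockCoeff B g := by
    rw [hS, ← pushF_blockCoeff, pushF_mk, Finset.sum_eq_single (1 : N)]
    · simp
    · intro n _ hn
      exact BlockOrtho.blockCoeff_eq_zero hM hB (hregn n hn)
    · simp
  have hcl : BlockClosed M S := blockClosed_preimage N hB
  have h2 : ∃ F : Cfsg.Agent.Lib.BrauerPair.BlockT M (G ⧸ N), F.1 ⊆ S ∧ ¬ MemLocalIdeal M (blockCoeff F.1 (g : G ⧸ N)) := by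
    by_contra hcon
    push Not at hcon
    apply hg.2.1
    rw [← h1, Cfsg.Agent.Lib.BlkCount.blockCoeff_closed_eq_sum hcl]
    refine memLocalIdeal_sum _ _ fun F _ => ?_
    split_ifs with h3
    · exact hcon F h3
    · exact memLocalIdeal_zero
  obtain ⟨F, hFS, hFg⟩ := h2
  refine ⟨F.1, F.2, fun χ hχ => hFS hχ, ?_⟩
  obtain ⟨S₀⟩ : Nonempty (Sylow p (Subgroup.centralizer ({g} : Set G))) := inferInstance
  set D : Subgroup G := (S₀ : Subgroup (Subgroup.centralizer ({g} : Set G))).map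
    (Subgroup.centralizer ({g} : Set G)).subtype with hD
  have hDdef : IsDefectGroup p M B D := ⟨g, hg, S₀, rfl⟩
  have hDp : IsPGroup p D := S₀.isPGroup'.map _
  have hDc : D ≤ Subgroup.centralizer ({g} : Set G) := Subgroup.map_subtype_le _
  set D₀ := D.map (QuotientGroup.mk' N) with hD₀
  have hD₀p : IsPGroup p D₀ := hDp.map _
  have hD₀c : D₀ ≤ Subgroup.centralizer ({(g : G ⧸ N)} : Set (G ⧸ N)) := by
    rintro _ ⟨d, hd, rfl⟩
    rw [Subgroup.mem_centralizer_singleton_iff]
    have h3 := hDc hd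
    rw [Subgroup.mem_centralizer_singleton_iff] at h3
    have := congrArg (QuotientGroup.mk' N) h3
    simpa using this
  have hsub' : ∀ χ ∈ F.1, ∀ ψ : IrrCharacter G, (ψ : G → ℂ) = (χ : G ⧸ N → ℂ) ∘ QuotientGroup.mk → ψ ∈ B := by
    intro χ hχ ψ hψ
    have : ψ = infl N χ := Subtype.ext hψ
    rw [this]
    exact hFS hχ
  have key : ∀ Dbar : Subgroup (G ⧸ N), IsDefectGroup p M F.1 Dbar →
      ∃ t : G ⧸ N, D₀.map (MulAut.conj t).toMonoidHom = Dbar := by
    intro Dbar hDbar
    obtain ⟨t, ht⟩ := exists_conj_le_map N hM F.2 hB hsub' hDbar hDdef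
    obtain ⟨s, hs⟩ := IsDefectGroup.sylow_conj hM F.2 hDbar hFg D₀ hD₀p hD₀c
    refine ⟨s, Subgroup.eq_of_le_of_card_ge hs ?_⟩
    rw [Subgroup.card_map_of_injective (MulAut.conj s).injective]
    have h5 := Subgroup.card_le_of_le ht
    rwa [Subgroup.card_map_of_injective (MulAut.conj t).injective] at h5
  intro Dbar
  constructor
  · intro hDbar
    obtain ⟨t, rfl⟩ := key Dbar hDbar
    obtain ⟨s, rfl⟩ := QuotientGroup.mk_surjective t
    refine ⟨D.map (MulAut.conj s).toMonoidHom, IsDefectGroup.conj hDdef s, ?_⟩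
    rw [map_mk_conj]
  · rintro ⟨P, hP, rfl⟩
    obtain ⟨s, rfl⟩ := IsDefectGroup_exists_conj_eq hM hB hDdef hP
    obtain ⟨D', hD'⟩ := exists_isDefectGroup hM F.2
    obtain ⟨t, ht⟩ := key D' hD'
    have h6 : D₀ = D'.map (MulAut.conj t⁻¹).toMonoidHom := by
      rw [← ht, map_conj_mul, inv_mul_cancel]
      ext x
      simp [MulAut.conj_apply]
    rw [map_mk_conj, ← hD₀, h6, map_conj_mul]
    exact IsDefectGroup.conj hD' _

end Quot

/-- **S4433** -/
theorem exists_defect_map_ge [Finite G] [hp : Fact p.Prime] (hM : IsPModular p M) (N : Subgroup G) [N.Normal]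
    {Bbar : Set (IrrCharacter (G ⧸ N))} (hBbar : IsPBlock M Bbar) {B : Set (IrrCharacter G)}
    (hB : IsPBlock M B)
    (hsub : ∀ χ ∈ Bbar, ∀ ψ : IrrCharacter G, (ψ : G → ℂ) = (χ : G ⧸ N → ℂ) ∘ QuotientGroup.mk → ψ ∈ B)
    {Dbar : Subgroup (G ⧸ N)} (hDbar : IsDefectGroup p M Bbar Dbar) :
    ∃ P : Subgroup G, IsDefectGroup p M B P ∧ Dbar ≤ P.map (QuotientGroup.mk' N) := by
  classical
  letI : Fintype G := Fintype.ofFinite G
  letI : Fintype (G ⧸ N) := Fintype.ofFinite _
  obtain ⟨D, hD⟩ := exists_isDefectGroup hM hB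
  obtain ⟨t, ht⟩ := exists_conj_le_map N hM hBbar hB hsub hDbar hD
  obtain ⟨s, rfl⟩ := QuotientGroup.mk_surjective t
  refine ⟨D.map (MulAut.conj s⁻¹).toMonoidHom, IsDefectGroup.conj hD _, ?_⟩
  rw [map_mk_conj]
  intro x hx
  refine ⟨(s : G ⧸ N) * x * (s : G ⧸ N)⁻¹, ht ⟨x, hx, rfl⟩, ?_⟩
  simp only [MulEquiv.coe_toMonoidHom, MulAut.conj_apply, QuotientGroup.mk'_apply, QuotientGroup.mk_inv]
  group

end Cfsg.Agent.Lib.BlockQuotDefect
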