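import Mathlib
import Cfsg.Agent.Lib.BlockSection
import Cfsg.Agent.Lib.BlockDefect

/-!
# Defects of induced blocks on centralizers

* `conv_mem_of_fixed`: fixed point form of the ideal property of class sums;
* `blockDefect_le_of_isInducedBlock`: `d(b) ≤ d(b^G)` for `b` a block of the centralizer of a
  cyclic (or abelian) `p`-subgroup;
* `exists_isInducedBlock_defect`: a block with defect group centralizing the `p`-group `P` is
  induced from a block of `C_G(P)` with at least the same defect.
-/

set_option autoImplicit false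
set_option linter.unusedSectionVars false
set_option linter.unusedVariables false
set_option linter.style.haveILetI false

namespace Cfsg.Agent.Lib.BlockDefectInd

open Cfsg Cfsg.Agent.Lib.CharBasic Cfsg.Agent.Lib.CharInd Cfsg.Agent.Lib.CharIntegrality
open Cfsg.Agent.Lib.BlockLocal Cfsg.Agent.Lib.BlockIdem Cfsg.Agent.Lib.BlockNormal
open Cfsg.Agent.Lib.BrauerMap Cfsg.Agent.Lib.BrauerPair Cfsg.Agent.Lib.BlockSecond
open Cfsg.Agent.Lib.BlockDefect Cfsg.Agent.Lib.BlockSection
open scoped ComplexConjugate

universe u

variable {G : Type u} [Group G] [Fintype G] {M : Ideal AlgInt} {p : ℕ}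

/-- If a `p`-subgroup centralizing `z` is such that `f` vanishes modulo `M` on the centralizer of
`U`, the class function product `f * k` vanishes at `z` modulo `M`. -/
theorem conv_mem_of_fixed (hM : IsPModular p M) {f k : G → ℂ} (hf : IsClassFunction G f)
    (hk : IsClassFunction G k) (hfR : ∀ g, MemLocalRing M (f g)) (hkR : ∀ g, MemLocalRing M (k g))
    {U : Subgroup G} (hU : IsPGroup p U) {z : G} (hle : U ≤ Subgroup.centralizer ({z} : Set G))
    (hI : ∀ x, U ≤ Subgroup.centralizer ({x} : Set G) → MemLocalIdeal M (f x)) :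
    MemLocalIdeal M (conv f k z) := by
  classical
  have := hM.2.1.isPrime
  letI : MulAction U G :=
    { smul := fun u x => (u : G) * x * (u : G)⁻¹
      one_smul := by
        intro x
        change ((1 : U) : G) * x * ((1 : U) : G)⁻¹ = x
        simp
      mul_smul := by
        intro a b x
        change ((a * b : U) : G) * x * ((a * b : U) : G)⁻¹ = (a : G) * ((b : G) * x * (b : G)⁻¹) * (a : G)⁻¹
        simp only [Subgroup.coe_mul, mul_inv_rev]
        group }
  have hsmul : ∀ (u : U) (x : G), u • x = (u : G) * x * (u : G)⁻¹ := fun _ _ => rfl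
  unfold conv
  refine memLocalIdeal_sum_of_invariant hM hU (fun x => f x * k (x⁻¹ * z)) ?_ ?_ ?_
  · intro u x
    simp only [hsmul]
    rw [hf x u]
    have h1 : ((u : G) * x * (u : G)⁻¹)⁻¹ * z = (u : G) * (x⁻¹ * z) * (u : G)⁻¹ := by
      have h2 : (u : G) * z = z * (u : G) := (Subgroup.mem_centralizer_singleton_iff.mp (hle u.2))
      calc ((u : G) * x * (u : G)⁻¹)⁻¹ * z = (u : G) * x⁻¹ * (u : G)⁻¹ * z := by group
        _ = (u : G) * x⁻¹ * ((u : G)⁻¹ * z * (u : G)) * (u : G)⁻¹ := by group
        _ = (u : G) * x⁻¹ * z * (u : G)⁻¹ := by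
            have h3 : (u : G)⁻¹ * z * (u : G) = z := by
              rw [mul_assoc, ← h2, inv_mul_cancel_left]
            rw [h3]
        _ = (u : G) * (x⁻¹ * z) * (u : G)⁻¹ := by group
    rw [h1, hk]
  · intro x
    exact memLocalRing_mul (hfR _) (hkR _)
  · intro x hx
    refine memLocalIdeal_mul_right (hI x ?_) (hkR _)
    intro u hu
    rw [Subgroup.mem_centralizer_singleton_iff]
    have h2 := hx ⟨u, hu⟩
    rw [hsmul] at h2
    calc u * x = (u * x * u⁻¹) * u := by group
      _ = x * u := by
        have h3 : u * x * u⁻¹ = x := h2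
        rw [h3]

/-- The defect of a block of the centralizer is at most that of the induced block. -/
theorem blockDefect_le_of_isInducedBlock [hpF : Fact p.Prime] (hM : IsPModular p M) {P : Subgroup G}
    (hP : IsPGroup p P) (hPC : P ≤ Subgroup.centralizer (P : Set G)) {H : Subgroup G} [Fintype H]
    (hH : H = Subgroup.centralizer (P : Set G)) {b : Set (IrrCharacter H)}
    {B : Set (IrrCharacter G)} (hind : IsInducedBlock M H b B) :
    blockDefect p b ≤ blockDefect p B := by
  classical
  haveI := isPrime_of_isPModular hM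
  have hp := hM.1
  have hCH : Subgroup.centralizer (P : Set G) ≤ H := hH.ge
  have hPH : P ≤ H := hH ▸ hPC
  obtain ⟨g, hg⟩ := exists_isDefectClass hM hind.1
  obtain ⟨S⟩ : Nonempty (Sylow p (Subgroup.centralizer ({g} : Set H))) := inferInstance
  set U : Subgroup H := (S : Subgroup (Subgroup.centralizer ({g} : Set H))).map
    (Subgroup.centralizer ({g} : Set H)).subtype with hU
  have hUdef : IsDefectGroup p M b U := ⟨g, hg, S, rfl⟩
  have hUcard := card_isDefectGroup hM hind.1 hUdef
  have hUp : IsPGroup p U := IsPGroup.of_card hUcard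
  have hUle : U ≤ Subgroup.centralizer ({g} : Set H) := Subgroup.map_subtype_le _
  have hecl : IsClassFunction G (blockCoeff B) := BlockNormal.blockCoeff_isClassFunction B
  have htcl : IsClassFunction H (resC H (blockCoeff B)) :=
    resC_isClassFunction (inv_of_isClassFunction hecl H)
  have hfcl : IsClassFunction H (blockCoeff b) := BlockNormal.blockCoeff_isClassFunction b
  have htR : ∀ x, MemLocalRing M (resC H (blockCoeff B) x) := fun x => memLocalRing_blockCoeff hind.2.1 _
  have hfR : ∀ x, MemLocalRing M (blockCoeff b x) := memLocalRing_blockCoeff hind.1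
  have h1 : MemLocalIdeal M (idemA H b B g) := idemA_vanish hM hind hP hPH hCH (hH ▸ g.2)
  have h2 : idemA H b B g = blockCoeff b g - conv (blockCoeff b) (resC H (blockCoeff B)) g :=
    congrFun (resC_idemA H b B) g
  rw [h2] at h1
  have h3 : ¬ MemLocalIdeal M (conv (resC H (blockCoeff B)) (blockCoeff b) g) := by
    rw [conv_comm_of_class htcl]
    intro h
    exact hg.2.1 (by simpa using memLocalIdeal_add h1 h)
  have h4 : ∃ x : H, U ≤ Subgroup.centralizer ({x} : Set H) ∧
      ¬ MemLocalIdeal M (resC H (blockCoeff B) x) := by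
    by_contra hcon
    push Not at hcon
    exact h3 (conv_mem_of_fixed hM htcl hfcl htR hfR hUp hUle hcon)
  obtain ⟨x, hx1, hx2⟩ := h4
  obtain ⟨D, hD⟩ := exists_isDefectGroup hM hind.2.1
  have h5 := IsDefectGroup.sylow_conj hM hind.2.1 hD (z := (x : G)) hx2
  have hU' : IsPGroup p (U.map H.subtype) := hUp.map _
  have hU'le : U.map H.subtype ≤ Subgroup.centralizer ({(x : G)} : Set G) := by
    rintro _ ⟨u, hu, rfl⟩
    have h6 := hx1 hu
    rw [Subgroup.mem_centralizer_singleton_iff] at h6 ⊢
    exact congrArg Subtype.val h6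
  obtain ⟨t, ht⟩ := h5 _ hU' hU'le
  have h7 : Nat.card U ≤ Nat.card D := by
    have h8 := Subgroup.card_le_of_le ht
    have h9 : Nat.card ((U.map H.subtype).map (MulAut.conj t).toMonoidHom) = Nat.card U := by
      rw [Subgroup.card_map_of_injective (MulAut.conj t).injective,
        Subgroup.card_map_of_injective H.subtype_injective]
    rwa [h9] at h8
  rw [hUcard, card_isDefectGroup hM hind.2.1 hD] at h7
  exact (Nat.pow_le_pow_iff_right hp.one_lt).mp h7

/-- A block whose defect group centralizes `P` is induced from `C_G(P)` with at least its defect. -/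
theorem exists_isInducedBlock_defect [hpF : Fact p.Prime] (hM : IsPModular p M) {P : Subgroup G}
    (hP : IsPGroup p P) (hPC : P ≤ Subgroup.centralizer (P : Set G)) {H : Subgroup G} [Fintype H]
    (hH : H = Subgroup.centralizer (P : Set G)) {B : Set (IrrCharacter G)} (hB : IsPBlock M B)
    {D : Subgroup G} (hD : IsDefectGroup p M B D) (hDH : D ≤ H) (hPD : P ≤ D) :
    ∃ b : Set (IrrCharacter H), IsInducedBlock M H b B ∧ blockDefect p B ≤ blockDefect p b := by
  classical
  subst hH
  set H := Subgroup.centralizer (P : Set G) with hHdef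
  haveI := isPrime_of_isPModular hM
  have hp := hM.1
  have hPH : P ≤ H := hPC
  have hDcard := card_isDefectGroup hM hB hD
  obtain ⟨g, hg, hDg, -⟩ := isDefectGroup_iff.mp hD
  -- `g` lies in `H`
  have hgH : g ∈ H := by
    rw [hHdef, Subgroup.mem_centralizer_iff]
    intro h hh
    have h1 := hDg (hPD hh)
    rw [Subgroup.mem_centralizer_singleton_iff] at h1
    exact h1
  set g' : H := ⟨g, hgH⟩ with hg'
  set t : H → ℂ := resC H (blockCoeff B) with ht
  have hecl : IsClassFunction G (blockCoeff B) := BlockNormal.blockCoeff_isClassFunction B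
  have htcl : IsClassFunction H t := resC_isClassFunction (inv_of_isClassFunction hecl H)
  have htR : ∀ x, MemLocalRing M (t x) := fun x => memLocalRing_blockCoeff hB _
  have h1 : ¬ MemLocalIdeal M (t g') := hg.2.1
  -- decompose
  have h2 : t g' = ∑ F : BlockT M H, conv t (blockCoeff F.1) g' := by
    have h3 : conv t (delta : H → ℂ) = t := conv_delta' t
    conv_lhs => rw [← h3, ← sum_blockCoeff (M := M)]
    unfold conv
    simp only [Finset.sum_apply, Finset.mul_sum]
    rw [Finset.sum_comm]
  have h3 : ∃ F : BlockT M H, ¬ MemLocalIdeal M (conv t (blockCoeff F.1) g') := by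
    by_contra hcon
    push Not at hcon
    apply h1
    rw [h2]
    exact memLocalIdeal_sum _ _ fun F _ => hcon F
  obtain ⟨F, hF⟩ := h3
  have hFcl : IsClassFunction H (blockCoeff F.1) := BlockNormal.blockCoeff_isClassFunction F.1
  have hFR : ∀ x, MemLocalRing M (blockCoeff F.1 x) := memLocalRing_blockCoeff F.2
  obtain ⟨B', hB'⟩ := exists_isInducedBlock_centralizer hM hP rfl F.2
  have hBB' : B' = B := by
    by_contra hne
    apply hF
    set t' : H → ℂ := resC H (blockCoeff B') with ht'
    have hecl' : IsClassFunction G (blockCoeff B') := BlockNormal.blockCoeff_isClassFunction B'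
    have ht'cl : IsClassFunction H t' := resC_isClassFunction (inv_of_isClassFunction hecl' H)
    have ht'R : ∀ x, MemLocalRing M (t' x) := fun x => memLocalRing_blockCoeff hB'.2.1 _
    have h4 : ∀ x : H, MemLocalIdeal M (blockCoeff F.1 x - conv (blockCoeff F.1) t' x) := by
      intro x
      have h5 := idemA_vanish hM hB' hP hPH le_rfl x.2
      have h6 : idemA H F.1 B' x = blockCoeff F.1 x - conv (blockCoeff F.1) (resC H (blockCoeff B')) x :=
        congrFun (resC_idemA H F.1 B') x
      rwa [h6] at h5
    have h7 : ∀ x : H, MemLocalIdeal M (conv t t' x) := by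
      intro x
      have h8 := conv_resC_congr P hP hM (β := blockCoeff B) (γ := blockCoeff B')
        (inv_of_isClassFunction hecl P) (inv_of_isClassFunction hecl' P)
        (memLocalRing_blockCoeff hB) (memLocalRing_blockCoeff hB'.2.1) x
      rw [conv_blockCoeff_of_ne hB hB'.2.1 (Ne.symm hne)] at h8
      have h9 := memLocalIdeal_neg h8
      simpa using h9
    have h10 : conv t (blockCoeff F.1) g' = conv t (blockCoeff F.1 - conv (blockCoeff F.1) t') g' +
        conv (blockCoeff F.1) (conv t t') g' := by
      rw [conv_sub_right']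
      have h11 : conv t (conv (blockCoeff F.1) t') = conv (blockCoeff F.1) (conv t t') := by
        rw [← conv_assoc', ← conv_assoc', conv_comm_of_class htcl]
      rw [h11]
      simp
    rw [h10]
    exact memLocalIdeal_add (memLocalIdeal_conv_right htR (fun x => h4 x) g')
      (memLocalIdeal_conv_right hFR h7 g')
  subst hBB'
  refine ⟨F.1, hB', ?_⟩
  -- the defect
  rw [conv_comm_of_class htcl] at hF
  set U : Subgroup H := D.subgroupOf H with hU
  have hUcard : Nat.card U = Nat.card D :=
    Nat.card_congr (Subgroup.subgroupOfEquivOfLe hDH).toEquiv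
  have hUp : IsPGroup p U := IsPGroup.of_card (hUcard.trans hDcard)
  have hUle : U ≤ Subgroup.centralizer ({g'} : Set H) := by
    intro u hu
    have h12 : (u : G) ∈ D := hu
    have h13 := hDg h12
    rw [Subgroup.mem_centralizer_singleton_iff] at h13 ⊢
    exact Subtype.ext h13
  have h14 : ∃ x : H, U ≤ Subgroup.centralizer ({x} : Set H) ∧
      ¬ MemLocalIdeal M (blockCoeff F.1 x) := by
    by_contra hcon
    push Not at hcon
    exact hF (conv_mem_of_fixed hM hFcl htcl hFR htR hUp hUle hcon)
  obtain ⟨x, hx1, hx2⟩ := h14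
  obtain ⟨DF, hDF⟩ := exists_isDefectGroup hM F.2
  have h15 := IsDefectGroup.sylow_conj hM F.2 hDF hx2
  obtain ⟨c, hc⟩ := h15 U hUp hx1
  have h16 : Nat.card U ≤ Nat.card DF := by
    have h17 := Subgroup.card_le_of_le hc
    rwa [Subgroup.card_map_of_injective (MulAut.conj c).injective] at h17
  rw [hUcard, hDcard, card_isDefectGroup hM F.2 hDF] at h16
  exact (Nat.pow_le_pow_iff_right hp.one_lt).mp h16

/-- Uniqueness of the induced block. -/
theorem isInducedBlock_unique [M.IsPrime] {H : Subgroup G} [Fintype H] {b : Set (IrrCharacter H)}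
    {B B' : Set (IrrCharacter G)} (h : IsInducedBlock M H b B) (h' : IsInducedBlock M H b B') :
    B = B' := by
  obtain ⟨ξ, hξ⟩ := exists_mem_of_isPBlock h.1
  obtain ⟨χ, hχ⟩ := exists_mem_of_isPBlock h.2.1
  obtain ⟨χ', hχ'⟩ := exists_mem_of_isPBlock h'.2.1
  have h1 : SameBlock M (χ : G → ℂ) (χ' : G → ℂ) := by
    intro g
    have h2 := memLocalIdeal_sub (h'.2.2 ξ hξ χ' hχ' g) (h.2.2 ξ hξ χ hχ g)
    have e : inducedCentralChar H (ξ : H → ℂ) g - centralChar (χ' : G → ℂ) g -
      (inducedCentralChar H (ξ : H → ℂ) g - centralChar (χ : G → ℂ) g) =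
      centralChar (χ : G → ℂ) g - centralChar (χ' : G → ℂ) g := by ring
    rwa [e] at h2
  rcases eq_or_disjoint_of_isPBlock h.2.1 h'.2.1 with h3 | h3
  · exact h3
  · exfalso
    have h4 : χ' ∈ B := by
      have hB := h.2.1
      obtain ⟨ψ, rfl⟩ := hB
      exact sameBlock_trans hχ h1
    exact Set.disjoint_left.1 h3 h4 hχ'

end Cfsg.Agent.Lib.BlockDefectInd
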