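import Mathlib
import Cfsg.Agent.Lib.FongReynolds
import Cfsg.Agent.Lib.BlockDefectInd

/-!
# Fong–Reynolds: heights and defect groups

If every member of the block `B` of `G` is induced from a member of `B'` (a block of `T`), and conversely,
then heights and defects agree; and a defect group of `B'` is a defect group of `B`.
-/

set_option autoImplicit false
set_option linter.unusedSectionVars false
set_option linter.unusedVariables false
set_option linter.style.haveILetI false

namespace Cfsg.Agent.Lib.FongReynoldsDefect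

open Cfsg Cfsg.Agent.Lib.CharBasic Cfsg.Agent.Lib.CharInd
open Cfsg.Agent.Lib.BlockLocal Cfsg.Agent.Lib.BlockIdem Cfsg.Agent.Lib.BlkBasic
open Cfsg.Agent.Lib.BlockDefect

universe u

variable {G : Type u} [Group G] [Fintype G] {T : Subgroup G} [Fintype T]

theorem charDegree_indFun {ψ : T → ℂ} (hψ : IsCharacter T ψ) :
    charDegree (indFun T ψ) = T.index * charDegree ψ := by
  have h1 : indFun T ψ 1 = ((T.index * charDegree ψ : ℕ) : ℂ) := by
    rw [indFun_one, Cfsg.Agent.Lib.CharKernel.one_eq_charDegree hψ]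
    push_cast
    rfl
  show ⌊(indFun T ψ 1).re⌋₊ = _
  rw [h1, Complex.natCast_re, Nat.floor_natCast]

variable {p : ℕ} [hp : Fact p.Prime] {B' : Set (IrrCharacter T)} {B : Set (IrrCharacter G)}

theorem factorization_charDegree_indFun {ψ : T → ℂ} (hψ : IsIrrCharacter T ψ) :
    (charDegree (indFun T ψ)).factorization p =
      T.index.factorization p + (charDegree ψ).factorization p := by
  rw [charDegree_indFun (IsIrrCharacter.isCharacter hψ),
    Nat.factorization_mul Subgroup.index_ne_zero_of_finite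
      (Cfsg.Agent.Lib.CharKernel.charDegree_ne_zero hψ)]
  rfl

theorem sInf_image_eq (hne : B'.Nonempty)
    (hirr : ∀ ψ ∈ B', IsIrrCharacter G (indFun T (ψ : T → ℂ)))
    (hchar : ∀ χ : IrrCharacter G, χ ∈ B ↔ ∃ ψ ∈ B', (χ : G → ℂ) = indFun T (ψ : T → ℂ)) :
    sInf ((fun χ : IrrCharacter G => (charDegree (χ : G → ℂ)).factorization p) '' B) =
      T.index.factorization p +
        sInf ((fun ψ : IrrCharacter T => (charDegree (ψ : T → ℂ)).factorization p) '' B') := by
  set S' := (fun ψ : IrrCharacter T => (charDegree (ψ : T → ℂ)).factorization p) '' B' with hS'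
  set S := (fun χ : IrrCharacter G => (charDegree (χ : G → ℂ)).factorization p) '' B with hS
  have hS'ne : S'.Nonempty := hne.image _
  have hm := Nat.sInf_mem hS'ne
  obtain ⟨ψ₀, hψ₀, hψ₀m⟩ := hm
  simp only at hψ₀m
  have hfac : ∀ χ ∈ B, ∃ ψ ∈ B', (charDegree (χ : G → ℂ)).factorization p =
      T.index.factorization p + (charDegree (ψ : T → ℂ)).factorization p := by
    intro χ hχ
    obtain ⟨ψ, hψ, h⟩ := (hchar χ).mp hχ
    exact ⟨ψ, hψ, by rw [h]; exact factorization_charDegree_indFun ψ.2⟩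
  let χ₀ : IrrCharacter G := ⟨_, hirr ψ₀ hψ₀⟩
  have hχ₀ : χ₀ ∈ B := (hchar χ₀).mpr ⟨ψ₀, hψ₀, rfl⟩
  have hSne : S.Nonempty := ⟨_, χ₀, hχ₀, rfl⟩
  apply le_antisymm
  · apply Nat.sInf_le
    refine ⟨χ₀, hχ₀, ?_⟩
    show (charDegree (indFun T (ψ₀ : T → ℂ))).factorization p = _
    rw [factorization_charDegree_indFun ψ₀.2, hψ₀m]
  · obtain ⟨χ, hχ, h⟩ := Nat.sInf_mem hSne
    simp only at h
    rw [← h]
    obtain ⟨ψ, hψ, h1⟩ := hfac χ hχ
    rw [h1]
    have h2 : sInf S' ≤ (charDegree (ψ : T → ℂ)).factorization p :=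
      Nat.sInf_le ⟨ψ, hψ, rfl⟩
    omega

theorem blockHeight_eq (hne : B'.Nonempty)
    (hirr : ∀ ψ ∈ B', IsIrrCharacter G (indFun T (ψ : T → ℂ)))
    (hchar : ∀ χ : IrrCharacter G, χ ∈ B ↔ ∃ ψ ∈ B', (χ : G → ℂ) = indFun T (ψ : T → ℂ))
    {ψ : T → ℂ} (hψ : IsIrrCharacter T ψ) :
    blockHeight p B (indFun T ψ) = blockHeight p B' ψ := by
  unfold blockHeight
  rw [sInf_image_eq hne hirr hchar, factorization_charDegree_indFun hψ]
  omega

theorem blockDefect_eq (hne : B'.Nonempty)
    (hirr : ∀ ψ ∈ B', IsIrrCharacter G (indFun T (ψ : T → ℂ)))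
    (hchar : ∀ χ : IrrCharacter G, χ ∈ B ↔ ∃ ψ ∈ B', (χ : G → ℂ) = indFun T (ψ : T → ℂ)) :
    blockDefect p B = blockDefect p B' := by
  unfold blockDefect
  rw [sInf_image_eq hne hirr hchar]
  have h1 : (Nat.card G).factorization p =
      (Nat.card T).factorization p + T.index.factorization p := by
    rw [← Subgroup.card_mul_index T, Nat.factorization_mul Nat.card_pos.ne'
      Subgroup.index_ne_zero_of_finite]
    rfl
  rw [h1]
  omega

/-- A defect group of `B'` is contained in a defect group of the induced block, up to conjugacy. -/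
theorem exists_conj_le_of_induced {M : Ideal AlgInt} (hM : IsPModular p M) (hB' : IsPBlock M B')
    (hB : IsPBlock M B) {ψ₀ : IrrCharacter T} (hψ₀ : ψ₀ ∈ B') {χ₀ : IrrCharacter G} (hχ₀ : χ₀ ∈ B)
    (hχ₀ψ₀ : (χ₀ : G → ℂ) = indFun T (ψ₀ : T → ℂ))
    {D : Subgroup T} (hD : IsDefectGroup p M B' D) {D₁ : Subgroup G} (hD₁ : IsDefectGroup p M B D₁) :
    ∃ t : G, (D.map T.subtype).map (MulAut.conj t).toMonoidHom ≤ D₁ := by
  classical
  haveI := isPrime_of_isPModular hM
  rw [isDefectGroup_iff] at hD₁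
  obtain ⟨g, hg, hle, hc⟩ := hD₁
  have h1 : ¬ MemLocalIdeal M (inducedCentralChar T (ψ₀ : T → ℂ) g) := by
    rw [← Cfsg.Agent.Lib.BlkBasic.centralChar_indFun, ← hχ₀ψ₀]
    exact hg.2.2 χ₀ hχ₀
  obtain ⟨u, hu, hu2⟩ := Cfsg.Agent.Lib.BlkBrauer.exists_of_inducedCentralChar T ψ₀ h1
  obtain ⟨P⟩ : Nonempty (Sylow p (Subgroup.centralizer ({u} : Set T))) := inferInstance
  obtain ⟨t, ht⟩ := IsDefectGroup.exists_conj_le hM hB' hD hψ₀ hu2 (leDefect_of_sylow u P)
  have hL : LeDefect p g D₁ := leDefect_of_isDefectGroup_data hle hc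
  obtain ⟨c, hc'⟩ := isConj_iff.mp hu
  have hL' : LeDefect p (u : G) D₁ := by
    rw [← hc']
    exact hL.conj c
  set Q : Subgroup T := (P : Subgroup (Subgroup.centralizer ({u} : Set T))).map
    (Subgroup.centralizer ({u} : Set T)).subtype with hQ
  have hQ1 : IsPGroup p Q :=
    (P.isPGroup').map (Subgroup.centralizer ({u} : Set T)).subtype
  have hQ2 : Q ≤ Subgroup.centralizer ({u} : Set T) := Subgroup.map_subtype_le _
  have hDt : IsPGroup p (D.map (MulAut.conj t).toMonoidHom) :=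
    IsPGroup.to_le hQ1 ht
  set U : Subgroup G := (D.map (MulAut.conj t).toMonoidHom).map T.subtype with hU
  have hU1 : IsPGroup p U := hDt.map _
  have hU2 : U ≤ Subgroup.centralizer ({(u : G)} : Set G) := by
    rintro _ ⟨x, hx, rfl⟩
    have h2 := hQ2 (ht hx)
    rw [Subgroup.mem_centralizer_singleton_iff] at h2 ⊢
    have h3 := congrArg (Subtype.val) h2
    exact h3
  obtain ⟨s, hs⟩ := hL' U hU1 hU2
  refine ⟨s * t, ?_⟩
  have h4 : (D.map T.subtype).map (MulAut.conj (s * (t : G))).toMonoidHom =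
      U.map (MulAut.conj s).toMonoidHom := by
    rw [hU, ← map_conj_mul]
    congr 1
    rw [Subgroup.map_map, Subgroup.map_map]
    have h5 : (MulEquiv.toMonoidHom (MulAut.conj (t : G))).comp T.subtype =
        T.subtype.comp (MulEquiv.toMonoidHom (MulAut.conj t)) := by
      ext x
      simp [MulAut.conj_apply]
    rw [h5]
  rw [h4]
  exact hs

/-- A defect group of `B'` is a defect group of `B` when the defects agree. -/
theorem isDefectGroup_map_of_induced {M : Ideal AlgInt} (hM : IsPModular p M) (hB' : IsPBlock M B')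
    (hB : IsPBlock M B) (hdef : blockDefect p B = blockDefect p B') {ψ₀ : IrrCharacter T}
    (hψ₀ : ψ₀ ∈ B') {χ₀ : IrrCharacter G} (hχ₀ : χ₀ ∈ B)
    (hχ₀ψ₀ : (χ₀ : G → ℂ) = indFun T (ψ₀ : T → ℂ))
    {D : Subgroup T} (hD : IsDefectGroup p M B' D) : IsDefectGroup p M B (D.map T.subtype) := by
  obtain ⟨D₁, hD₁⟩ := exists_isDefectGroup hM hB
  obtain ⟨t, ht⟩ := exists_conj_le_of_induced hM hB' hB hψ₀ hχ₀ hχ₀ψ₀ hD hD₁
  have hc1 := card_isDefectGroup hM hB hD₁
  have hc2 := card_isDefectGroup hM hB' hD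
  have hc3 : Nat.card ((D.map T.subtype).map (MulAut.conj t).toMonoidHom : Subgroup G) =
      Nat.card D₁ := by
    rw [Subgroup.card_map_of_injective (MulAut.conj t).injective,
      Subgroup.card_map_of_injective Subtype.val_injective, hc1, hc2, hdef]
  have heq : (D.map T.subtype).map (MulAut.conj t).toMonoidHom = D₁ :=
    Subgroup.eq_of_le_of_card_ge ht (le_of_eq hc3.symm)
  have h1 := IsDefectGroup.conj hD₁ t⁻¹
  rw [← heq, map_conj_mul, inv_mul_cancel] at h1
  convert h1 using 1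
  ext x
  simp

end Cfsg.Agent.Lib.FongReynoldsDefect
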