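import Mathlib
import Cfsg.Agent.Lib.BlockKnorr
import Cfsg.Agent.Lib.BrauerConj
import Cfsg.Agent.Lib.FongReynoldsDefect
import Cfsg.Agent.Lib.BlockExt
import Cfsg.Agent.Lib.BlockQuotDefect

/-!
# Defect groups of a covered block

`N ⊴ G`, `B` a block of `G`, `P` a defect group of `B`.  Some block of `N` covered by `B` is stable
under `P` and has `P ⊓ N` as a defect group.  Also: if `N ≤ L` are normal with `L / N` a `p`-group
and `N` contains a defect group of `B`, then the stabilizer of a covered block meets `L` in `N`.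
-/

set_option autoImplicit false
set_option linter.unusedSectionVars false
set_option linter.unusedVariables false
set_option linter.style.haveILetI false

namespace Cfsg.Agent.Lib.BlockCoverDefect

open Cfsg Cfsg.Agent.Lib.CharBasic Cfsg.Agent.Lib.CharInd Cfsg.Agent.Lib.CharIntegrality
open Cfsg.Agent.Lib.BlockLocal Cfsg.Agent.Lib.BlockIdem Cfsg.Agent.Lib.BlkBasic
open Cfsg.Agent.Lib.BrauerPair Cfsg.Agent.Lib.BlkNormalSub Cfsg.Agent.Lib.BlockDefect
open Cfsg.Agent.Lib.GroupAlgNil Cfsg.Agent.Lib.FongReynolds Cfsg.Agent.Lib.BlockCover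
open Cfsg.Agent.Lib.BlockQ Cfsg.Agent.Lib.BlockKnorr Cfsg.Agent.Lib.CharInduction
open Cfsg.Agent.Lib.BrauerConj

universe u

section Twist

variable {H H' : Type u} [Group H] [Group H'] {p : ℕ} {M : Ideal AlgInt}

theorem isDefectClass_twist (σ : H ≃* H') {f : Set (IrrCharacter H)} {g : H}
    (h : IsDefectClass M f g) : IsDefectClass M (twistSetE σ f) (σ g) := by
  refine ⟨?_, ?_, ?_⟩
  · rw [blockCoeff_twistSetE]
    exact h.1
  · rw [blockCoeff_twistSetE]
    exact h.2.1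
  · rintro _ ⟨χ, hχ, rfl⟩
    rw [centralChar_twistE]
    simpa using h.2.2 χ hχ

theorem card_centralizer_twist (σ : H ≃* H') (g : H) :
    Nat.card (Subgroup.centralizer ({σ g} : Set H')) =
      Nat.card (Subgroup.centralizer ({g} : Set H)) := by
  have h1 : (Subgroup.centralizer ({g} : Set H)).map σ.toMonoidHom =
      Subgroup.centralizer ({σ g} : Set H') := by
    ext x
    simp only [Subgroup.mem_map, Subgroup.mem_centralizer_iff, Set.mem_singleton_iff, forall_eq]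
    constructor
    · rintro ⟨y, hy, rfl⟩
      show σ g * σ y = σ y * σ g
      rw [← map_mul, ← map_mul, hy]
    · intro hx
      refine ⟨σ.symm x, ?_, by simp⟩
      apply σ.injective
      simpa using hx
  rw [← h1, Subgroup.card_map_of_injective σ.injective]

end Twist

section TwistF

variable {H H' : Type u} [Group H] [Group H'] [Fintype H] [Fintype H'] {p : ℕ} {M : Ideal AlgInt}

theorem isDefectGroup_twist [Fact p.Prime] (σ : H ≃* H') {f : Set (IrrCharacter H)} {D : Subgroup H}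
    (hD : IsDefectGroup p M f D) : IsDefectGroup p M (twistSetE σ f) (D.map σ.toMonoidHom) := by
  obtain ⟨g, hg, hle, hc⟩ := isDefectGroup_iff.mp hD
  refine isDefectGroup_iff.mpr ⟨σ g, isDefectClass_twist σ hg, ?_, ?_⟩
  · rintro _ ⟨x, hx, rfl⟩
    rw [Subgroup.mem_centralizer_iff]
    rintro _ rfl
    have := Subgroup.mem_centralizer_iff.mp (hle hx) g rfl
    show σ g * σ x = σ x * σ g
    rw [← map_mul, ← map_mul, this]
  · rw [Subgroup.card_map_of_injective σ.injective, hc, card_centralizer_twist]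

theorem classInner_comp_equiv (σ : H ≃* H') (f g : H' → ℂ) :
    classInner (f ∘ σ) (g ∘ σ) = classInner f g := by
  unfold classInner
  rw [Nat.card_congr σ.toEquiv]
  congr 1
  exact Equiv.sum_comp σ.toEquiv (fun x => f x * (starRingEnd ℂ) (g x))

end TwistF


section Main

theorem mem_normalizer_of_normal {X : Type*} [Group X] {K : Subgroup X} (hK : K.Normal) (g : X) :
    g ∈ Subgroup.normalizer (K : Set X) := by
  rw [Subgroup.normalizer_eq_top_iff.mpr hK]
  trivial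

variable {G : Type u} [Group G] [Fintype G] {N : Subgroup G} [hN : N.Normal] [Fintype N]
  {p : ℕ} {M : Ideal AlgInt}

theorem cjE_eq_self_of_mem (θ : IrrCharacter N) {n : G} (hn : n ∈ N) : cjE N n θ = θ := by
  apply Subtype.ext
  funext m
  rw [cjE_apply]
  have hθc := isClassFunction_of_isCharacter (IsIrrCharacter.isCharacter θ.2)
  have := hθc m ⟨n, hn⟩
  exact this

/-- The stabilizer of a block. -/
def stabSub {b : Set (IrrCharacter N)} [M.IsPrime] (hb : IsPBlock M b) : Subgroup G where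
  carrier := {g | ∀ θ ∈ b, cjE N g θ ∈ b}
  one_mem' := fun θ hθ => by
    rw [cjE_eq_self_of_mem θ N.one_mem]
    exact hθ
  mul_mem' := by
    intro x y hx hy θ hθ
    rw [← cjE_cjE]
    exact hy _ (hx θ hθ)
  inv_mem' := by
    intro x hx θ hθ
    have h1 : SameBlock M (cjE N x θ : N → ℂ) (θ : N → ℂ) :=
      sameBlock_of_mem hb (hx θ hθ) hθ
    have h2 := sameBlock_cjE N h1 x⁻¹
    rw [cjE_inv_cjE] at h2
    exact blockClosed_of_isPBlock hb _ hθ _ h2

theorem isStab_stabSub {b : Set (IrrCharacter N)} [M.IsPrime] (hb : IsPBlock M b) :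
    IsStab b (stabSub hb) := fun _ => Iff.rfl

theorem le_stabSub {b : Set (IrrCharacter N)} [M.IsPrime] (hb : IsPBlock M b) : N ≤ stabSub hb := by
  intro n hn θ hθ
  rw [cjE_eq_self_of_mem θ hn]
  exact hθ

/-- **The defect group version of the Fong–Reynolds reduction and Knörr's theorem**. -/
theorem exists_defect_of_cover [Fact p.Prime] (hM : IsPModular p M) {b : Set (IrrCharacter N)}
    (hb : IsPBlock M b) {B : Set (IrrCharacter G)} (hB : IsPBlock M B)
    (hcov : ∃ χ ∈ B, ∃ θ ∈ b, classInner (fun n : N => (χ : G → ℂ) n) (θ : N → ℂ) ≠ 0)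
    {T : Subgroup G} [Fintype T] (hNT : N ≤ T) (hS : IsStab b T) :
    ∃ P₀ : Subgroup G, IsDefectGroup p M B P₀ ∧ P₀ ≤ T ∧
      IsDefectGroup p M b ((P₀ ⊓ N).subgroupOf N) := by
  classical
  haveI hMp : M.IsPrime := hM.2.1.isPrime
  obtain ⟨B', hB', hcov', hind⟩ := exists_induced_of_cover hNT hS hb hB hcov
  obtain ⟨Q₀, hQ₀⟩ := exists_isDefectGroup hM hb
  set N' : Subgroup T := N.subgroupOf T with hN'
  haveI hN'n : N'.Normal := Subgroup.normal_subgroupOf
  letI : Fintype N' := Fintype.ofFinite N'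
  let e : N' ≃* N := Subgroup.subgroupOfEquivOfLe hNT
  have he : ∀ n : N', ((e n : N) : G) = ((n : T) : G) := fun n => rfl
  have he' : ∀ n : N', (Subgroup.inclusion hNT) (e n) = (n : T) := fun n => Subtype.ext rfl
  set b' : Set (IrrCharacter N') := twistSetE e.symm b with hb'
  have hb'b : IsPBlock M b' := isPBlock_twistSetE e.symm hb
  set Q' : Subgroup T := (Q₀.map e.symm.toMonoidHom).map N'.subtype with hQ'
  have hQ'N : Q' ≤ N' := Subgroup.map_subtype_le _
  have hQ'b : IsDefectGroup p M b' (Q'.subgroupOf N') := by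
    have h0 : Q'.subgroupOf N' = Q₀.map e.symm.toMonoidHom :=
      Subgroup.comap_map_eq_self_of_injective N'.subtype_injective _
    rw [h0]
    exact isDefectGroup_twist e.symm hQ₀
  have hcov'' : ∃ ψ ∈ B', ∃ θ ∈ b',
      classInner (fun n : N' => (ψ : T → ℂ) n) (θ : N' → ℂ) ≠ 0 := by
    obtain ⟨ψ, hψ, θ, hθ, hne⟩ := hcov'
    refine ⟨ψ, hψ, twistE e.symm θ, ⟨θ, hθ, rfl⟩, ?_⟩
    have h1 := classInner_comp_equiv e ((ψ : T → ℂ) ∘ incl hNT) (θ : N → ℂ)
    rw [← h1] at hne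
    convert hne using 2
    · funext n
      show (ψ : T → ℂ) n = (ψ : T → ℂ) (incl hNT (e n))
      rw [he' n]
    · funext n
      simp [twistE_apply]
  obtain ⟨P', hP', hinf⟩ := exists_defect_inf_eq hM hb'b hQ'N hQ'b hB' hcov''
  refine ⟨P'.map T.subtype, ?_, Subgroup.map_subtype_le _, ?_⟩
  · obtain ⟨B₁, h1, -, h3, h4⟩ := exists_induced hNT hS hb hB' hcov'
    have hB₁ : B₁ = B := Cfsg.Agent.Lib.BlockDefectInd.isInducedBlock_unique h1 hind
    subst hB₁
    obtain ⟨ψ₀, hψ₀, -⟩ := id hcov'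
    have hne : B'.Nonempty := ⟨ψ₀, hψ₀⟩
    exact Cfsg.Agent.Lib.FongReynoldsDefect.isDefectGroup_map_of_induced hM hB' h1.2.1
      (Cfsg.Agent.Lib.FongReynoldsDefect.blockDefect_eq hne h3 h4) hψ₀
      ((h4 ⟨_, h3 ψ₀ hψ₀⟩).mpr ⟨ψ₀, hψ₀, rfl⟩) rfl hP'
  · have h2 : (P'.map T.subtype ⊓ N).subgroupOf N = Q₀ := by
      ext n
      simp only [Subgroup.mem_subgroupOf, Subgroup.mem_inf, Subgroup.mem_map]
      constructor
      · rintro ⟨⟨t, ht, htn⟩, -⟩
        have htN : t ∈ N' := by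
          rw [hN', Subgroup.mem_subgroupOf]
          show (t : G) ∈ N
          have : (t : G) = n := htn
          rw [this]
          exact n.2
        have h3 : t ∈ P' ⊓ N' := ⟨ht, htN⟩
        rw [hinf] at h3
        obtain ⟨q, hq, hqt⟩ := h3
        obtain ⟨q₀, hq₀, rfl⟩ := hq
        have h4 : (q₀ : G) = n := by
          have h5 : ((e (e.symm q₀) : N) : G) = ((e.symm q₀ : N') : T) := he _
          rw [MulEquiv.apply_symm_apply] at h5
          rw [h5, ← htn, ← hqt]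
          rfl
        have h6 : q₀ = n := Subtype.ext h4
        rw [← h6]
        exact hq₀
      · intro hn
        refine ⟨⟨⟨(n : G), hNT n.2⟩, ?_, rfl⟩, n.2⟩
        have h3 : (⟨(n : G), hNT n.2⟩ : T) ∈ P' ⊓ N' := by
          rw [hinf]
          refine ⟨e.symm n, ⟨n, hn, rfl⟩, ?_⟩
          apply Subtype.ext
          have h5 : ((e (e.symm n) : N) : G) = ((e.symm n : N') : T) := he _
          rw [MulEquiv.apply_symm_apply] at h5
          exact h5.symm
        exact h3.1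
    rw [h2]
    exact hQ₀


theorem exists_stable_block [Fact p.Prime] (hM : IsPModular p M) {B : Set (IrrCharacter G)}
    (hB : IsPBlock M B) {P : Subgroup G} (hP : IsDefectGroup p M B P) :
    ∃ c : Set (IrrCharacter N), IsPBlock M c ∧ (∀ x ∈ P, StabilizesBlock N c x) ∧
      (∃ χ ∈ B, ∃ θ ∈ c, classInner (fun n : N => (χ : G → ℂ) n) (θ : N → ℂ) ≠ 0) ∧
      IsDefectGroup p M c ((P ⊓ N).subgroupOf N) := by
  classical
  haveI hMp : M.IsPrime := hM.2.1.isPrime
  obtain ⟨χ, hχB⟩ := id hB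
  have hχ : χ ∈ B := by
    rw [hχB]
    exact mem_blockOf_self χ
  obtain ⟨θ, hθ⟩ := exists_constituent (N := N) χ
  set b : Set (IrrCharacter N) := blockOf M (θ : N → ℂ) with hbdef
  have hb : IsPBlock M b := ⟨θ, rfl⟩
  letI : Fintype (stabSub hb) := Fintype.ofFinite _
  obtain ⟨P₀, hP₀, hP₀T, hdef⟩ := exists_defect_of_cover hM hb hB
    ⟨χ, hχ, θ, mem_blockOf_self θ, hθ⟩ (le_stabSub hb) (isStab_stabSub hb)
  obtain ⟨t, ht⟩ := Cfsg.Agent.Lib.BlockQuotDefect.IsDefectGroup_exists_conj_eq hM hB hP₀ hP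
  subst ht
  let σ : N ≃* N := MulAut.conjNormal t
  have hσ : ∀ k : N, ((σ k : N) : G) = t * k * t⁻¹ := fun k => MulAut.conjNormal_apply t k
  have hσ' : ∀ k : N, ((σ.symm k : N) : G) = t⁻¹ * k * t := fun k => MulAut.conjNormal_symm_apply t k
  refine ⟨twistSetE σ b, isPBlock_twistSetE σ hb, ?_, ⟨χ, hχ, twistE σ θ,
    ⟨θ, mem_blockOf_self θ, rfl⟩, ?_⟩, ?_⟩
  · rintro _ ⟨y, hy, rfl⟩
    refine ⟨mem_normalizer_of_normal hN _, ?_⟩
    rintro _ ⟨θ', hθ', rfl⟩
    have hy' : y⁻¹ ∈ stabSub hb := (stabSub hb).inv_mem (hP₀T hy)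
    refine ⟨twistE σ (cjE N y⁻¹ θ'), ⟨_, hy' θ' hθ', rfl⟩, ?_⟩
    intro k k' hk
    rw [twistE_apply, twistE_apply, cjE_apply]
    refine congrArg (θ' : N → ℂ) (Subtype.ext ?_)
    simp only [hσ', hk]
    simp only [MulEquiv.toMonoidHom_eq_coe, MonoidHom.coe_coe, MulAut.conj_apply]
    group
  · have h1 := classInner_comp_equiv σ.symm (fun n : N => (χ : G → ℂ) n) (θ : N → ℂ)
    rw [← h1] at hθ
    convert hθ using 2
    · funext n
      have hχc := isClassFunction_of_isCharacter (IsIrrCharacter.isCharacter χ.2)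
      simp only [Function.comp, hσ']
      have := hχc (n : G) t⁻¹
      rw [inv_inv] at this
      exact this.symm
    · funext n
      simp [twistE_apply]
  · have h1 := isDefectGroup_twist σ hdef
    convert h1 using 1
    ext n
    simp only [Subgroup.mem_subgroupOf, Subgroup.mem_inf, Subgroup.mem_map]
    constructor
    · rintro ⟨⟨y, hy, hyn⟩, -⟩
      refine ⟨σ.symm n, ⟨?_, (σ.symm n).2⟩, by simp⟩
      rw [hσ', ← hyn]
      simpa [mul_assoc] using hy
    · rintro ⟨m, ⟨hm, -⟩, rfl⟩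
      exact ⟨⟨m, hm, (hσ m).symm⟩, (σ m).2⟩

/-- The normal form of the stable case. -/
theorem le_of_stable [Fact p.Prime] (hM : IsPModular p M) {L : Subgroup G} [hL : L.Normal]
    (hNL : N ≤ L) (hidx : ∃ k : ℕ, (N.subgroupOf L).index = p ^ k) {c : Set (IrrCharacter N)}
    (hc : IsPBlock M c) (hst : ∀ x : G, ∀ θ ∈ c, cjE N x θ ∈ c) {B : Set (IrrCharacter G)}
    (hB : IsPBlock M B)
    (hcov : ∃ χ ∈ B, ∃ θ ∈ c, classInner (fun n : N => (χ : G → ℂ) n) (θ : N → ℂ) ≠ 0)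
    {D : Subgroup G} (hD : IsDefectGroup p M B D) (hDN : D ≤ N) : L ≤ N := by
  classical
  haveI hMp : M.IsPrime := hM.2.1.isPrime
  letI : Fintype L := Fintype.ofFinite L
  set N₁ : Subgroup L := N.subgroupOf L with hN₁
  haveI hN₁n : N₁.Normal := Subgroup.normal_subgroupOf
  letI : Fintype N₁ := Fintype.ofFinite N₁
  let e : N₁ ≃* N := Subgroup.subgroupOfEquivOfLe hNL
  have he : ∀ n : N₁, ((e n : N) : G) = ((n : L) : G) := fun n => rfl
  have he' : ∀ n : N, ((e.symm n : N₁) : L) = (⟨(n : G), hNL n.2⟩ : L) := by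
    intro n
    apply Subtype.ext
    rw [← he, MulEquiv.apply_symm_apply]
  set c₁ : Set (IrrCharacter N₁) := twistSetE e.symm c with hc₁
  have hc₁b : IsPBlock M c₁ := isPBlock_twistSetE e.symm hc
  have hst₁ : ∀ x : L, StabilizesBlock N₁ c₁ x := by
    intro x
    refine ⟨mem_normalizer_of_normal hN₁n _, ?_⟩
    rintro _ ⟨θ, hθ, rfl⟩
    refine ⟨twistE e.symm (cjE N (x⁻¹ : L) θ), ⟨_, hst _ θ hθ, rfl⟩, ?_⟩
    intro k k' hk
    rw [twistE_apply, twistE_apply, cjE_apply]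
    refine congrArg (θ : N → ℂ) (Subtype.ext ?_)
    simp only [MulEquiv.symm_symm, he, hk]
    simp only [InvMemClass.coe_inv, inv_inv, Subgroup.coe_mul]
    group
  obtain ⟨B₁, hB₁, hB₁c⟩ := Cfsg.Agent.Lib.BlockExt.exists_block_of_stable hM N₁ hidx hc₁b hst₁
  obtain ⟨P₁, hP₁⟩ := exists_isDefectGroup hM hB₁
  obtain ⟨hsup, -⟩ := Cfsg.Agent.Lib.BlockExt.defect_of_stable hM N₁ hidx hc₁b hst₁ hB₁ hB₁c hP₁
  have hcov₁ : ∃ χ ∈ B, ∃ ξ ∈ B₁, classInner (fun n : L => (χ : G → ℂ) n) (ξ : L → ℂ) ≠ 0 := by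
    obtain ⟨χ, hχ, θ, hθ, hne⟩ := hcov
    obtain ⟨ξ, h1, h2⟩ := FongReynolds.exists_constituent hNL (IsIrrCharacter.isCharacter χ.2) θ.2 hne
    refine ⟨χ, hχ, ξ, ?_, h2⟩
    have h3 : classInner (fun n : N₁ => (ξ : L → ℂ) n) (twistE e.symm θ : N₁ → ℂ) ≠ 0 := by
      have h4 := classInner_comp_equiv e ((ξ : L → ℂ) ∘ incl hNL) (θ : N → ℂ)
      rw [← h4] at h1
      convert h1 using 2
      · funext n
        show (ξ : L → ℂ) n = (ξ : L → ℂ) (incl hNL (e n))
        congr 1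
      · funext n
        simp [twistE_apply]
    have hcl : IsClassFunction L (blockCoeff B₁) := BlkBasic.blockCoeff_isClassFunction B₁
    have hsupp : ∀ x, x ∉ N₁ → blockCoeff B₁ x = 0 := by
      intro x hx
      rw [hB₁c]
      unfold subgroupBlockCoeff
      simp [hx]
    have h5 := Cfsg.Agent.Lib.BlockExt.omega_eq_of_constituent N₁ hcl hsupp ξ (twistE e.symm θ) h3
    have h6 : (fun n : N₁ => blockCoeff B₁ (n : L)) = blockCoeff c₁ := by
      funext n
      rw [hB₁c]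
      unfold subgroupBlockCoeff
      simp
    rw [h6, BlkBasic.omega_blockCoeff, BlkBasic.omega_blockCoeff] at h5
    have h7 : twistE e.symm θ ∈ c₁ := ⟨θ, hθ, rfl⟩
    rw [blkInd_of_mem h7] at h5
    by_contra h8
    rw [blkInd_of_not_mem h8] at h5
    exact zero_ne_one h5
  set Q : Subgroup L := P₁ with hQ
  have hQ' : ((P₁.map L.subtype).subgroupOf L) = P₁ :=
    Subgroup.comap_map_eq_self_of_injective L.subtype_injective _
  obtain ⟨P, hP, hinf⟩ := exists_defect_inf_eq hM hB₁ (Subgroup.map_subtype_le P₁)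
    (by rw [hQ']; exact hP₁) hB hcov₁
  obtain ⟨t, ht⟩ := Cfsg.Agent.Lib.BlockQuotDefect.IsDefectGroup_exists_conj_eq hM hB hD hP
  have hPN : P ≤ N := by
    rw [← ht]
    rintro _ ⟨y, hy, rfl⟩
    exact hN.conj_mem _ (hDN hy) _
  have hP₁N : P₁ ≤ N₁ := by
    intro y hy
    have h1 : (y : G) ∈ P₁.map L.subtype := ⟨y, hy, rfl⟩
    rw [← hinf] at h1
    exact hPN h1.1
  rw [sup_eq_left.mpr hP₁N] at hsup
  intro x hx
  have h1 : (⟨x, hx⟩ : L) ∈ N₁ := by
    rw [hsup]
    trivial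
  exact h1

/-- The stabilizer of a covered block. -/
theorem inf_eq_of_cover [Fact p.Prime] (hM : IsPModular p M) {L : Subgroup G} [hL : L.Normal]
    (hNL : N ≤ L) (hLN : ∃ k : ℕ, (N.subgroupOf L).index = p ^ k) {B : Set (IrrCharacter G)}
    (hB : IsPBlock M B) {c : Set (IrrCharacter N)} (hc : IsPBlock M c)
    (hcov : ∃ χ ∈ B, ∃ θ ∈ c, classInner (fun n : N => (χ : G → ℂ) n) (θ : N → ℂ) ≠ 0)
    (hD : ∃ D : Subgroup G, IsDefectGroup p M B D ∧ D ≤ N) {T : Subgroup G}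
    (hT : ∀ x : G, x ∈ T ↔ StabilizesBlock N c x) : T ⊓ L = N := by
  classical
  haveI hMp : M.IsPrime := hM.2.1.isPrime
  have hp : p.Prime := Fact.out
  have hS : IsStab c T := by
    intro g
    constructor
    · intro hg θ hθ
      obtain ⟨-, h2⟩ := (hT _).mp (T.inv_mem hg)
      obtain ⟨χ', hχ', h3⟩ := h2 θ hθ
      have h4 : cjE N g θ = χ' := by
        apply Subtype.ext
        funext m
        rw [cjE_apply]
        exact (h3 _ m (by simp [mul_assoc])).symm
      rw [h4]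
      exact hχ'
    · intro h
      rw [hT]
      refine ⟨mem_normalizer_of_normal hN _, fun θ hθ => ?_⟩
      have h1 : g ∈ stabSub hc := h
      have h2 : g⁻¹ ∈ stabSub hc := (stabSub hc).inv_mem h1
      refine ⟨cjE N g⁻¹ θ, h2 θ hθ, ?_⟩
      intro k k' hk
      rw [cjE_apply]
      refine congrArg (θ : N → ℂ) (Subtype.ext ?_)
      simp only [hk]
      group
  have hNT : N ≤ T := by
    intro n hn
    rw [hS]
    intro θ hθ
    rw [cjE_eq_self_of_mem θ hn]
    exact hθ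
  refine le_antisymm ?_ (le_inf hNT hNL)
  letI : Fintype T := Fintype.ofFinite T
  obtain ⟨B', hB', hcov', hind⟩ := exists_induced_of_cover hNT hS hc hB hcov
  obtain ⟨P', hP'⟩ := exists_isDefectGroup hM hB'
  obtain ⟨D, hD, hDN⟩ := hD
  have hP'G : IsDefectGroup p M B (P'.map T.subtype) := by
    obtain ⟨B₁, h1, -, h3, h4⟩ := exists_induced hNT hS hc hB' hcov'
    have hB₁ : B₁ = B := Cfsg.Agent.Lib.BlockDefectInd.isInducedBlock_unique h1 hind
    subst hB₁
    obtain ⟨ψ₀, hψ₀, -⟩ := id hcov'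
    have hne : B'.Nonempty := ⟨ψ₀, hψ₀⟩
    exact Cfsg.Agent.Lib.FongReynoldsDefect.isDefectGroup_map_of_induced hM hB' h1.2.1
      (Cfsg.Agent.Lib.FongReynoldsDefect.blockDefect_eq hne h3 h4) hψ₀
      ((h4 ⟨_, h3 ψ₀ hψ₀⟩).mpr ⟨ψ₀, hψ₀, rfl⟩) rfl hP'
  obtain ⟨t, ht⟩ := Cfsg.Agent.Lib.BlockQuotDefect.IsDefectGroup_exists_conj_eq hM hB hD hP'G
  have hPN : P'.map T.subtype ≤ N := by
    rw [← ht]
    rintro _ ⟨y, hy, rfl⟩
    exact hN.conj_mem _ (hDN hy) _
  set N' : Subgroup T := N.subgroupOf T with hN'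
  haveI hN'n : N'.Normal := Subgroup.normal_subgroupOf
  letI : Fintype N' := Fintype.ofFinite N'
  set L' : Subgroup T := L.subgroupOf T with hL'
  haveI hL'n : L'.Normal := Subgroup.normal_subgroupOf
  let e : N' ≃* N := Subgroup.subgroupOfEquivOfLe hNT
  have he : ∀ n : N', ((e n : N) : G) = ((n : T) : G) := fun n => rfl
  have he' : ∀ n : N', (Subgroup.inclusion hNT) (e n) = (n : T) := fun n => Subtype.ext rfl
  set c' : Set (IrrCharacter N') := twistSetE e.symm c with hc'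
  have hc'b : IsPBlock M c' := isPBlock_twistSetE e.symm hc
  have hN'L' : N' ≤ L' := fun x hx => hNL hx
  have hidx' : ∃ k : ℕ, (N'.subgroupOf L').index = p ^ k := by
    obtain ⟨k, hk⟩ := hLN
    have h1 : (N'.subgroupOf L').index = N.relIndex (L ⊓ T) := by
      show N'.relIndex L' = _
      rw [hN']
      show (Subgroup.comap T.subtype N).relIndex L' = _
      rw [Subgroup.relIndex_comap, hL', Subgroup.subgroupOf_map_subtype]
    have h2 : N.relIndex (L ⊓ T) * (L ⊓ T).relIndex L = N.relIndex L :=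
      Subgroup.relIndex_mul_relIndex N (L ⊓ T) L (le_inf hNL hNT) inf_le_left
    have h3 : N.relIndex (L ⊓ T) ∣ p ^ k := by
      rw [← hk]
      exact Dvd.intro _ h2
    obtain ⟨j, -, hj⟩ := (Nat.dvd_prime_pow hp).mp h3
    exact ⟨j, by rw [h1, hj]⟩
  have hst' : ∀ x : T, ∀ θ ∈ c', cjE N' x θ ∈ c' := by
    rintro x _ ⟨θ, hθ, rfl⟩
    have h1 := hS.cjE_mem x.2 hθ
    refine ⟨_, h1, ?_⟩
    apply Subtype.ext
    funext k
    rw [twistE_apply, cjE_apply, cjE_apply, twistE_apply]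
    rfl
  have hcov'' : ∃ ψ ∈ B', ∃ θ ∈ c',
      classInner (fun n : N' => (ψ : T → ℂ) n) (θ : N' → ℂ) ≠ 0 := by
    obtain ⟨ψ, hψ, θ, hθ, hne⟩ := hcov'
    refine ⟨ψ, hψ, twistE e.symm θ, ⟨θ, hθ, rfl⟩, ?_⟩
    have h1 := classInner_comp_equiv e ((ψ : T → ℂ) ∘ incl hNT) (θ : N → ℂ)
    rw [← h1] at hne
    convert hne using 2
    · funext n
      show (ψ : T → ℂ) n = (ψ : T → ℂ) (incl hNT (e n))
      rw [he' n]
    · funext n
      simp [twistE_apply]
  have hle := le_of_stable hM hN'L' hidx' hc'b hst' hB' hcov'' hP' (by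
    intro y hy
    exact hPN ⟨y, hy, rfl⟩)
  rintro x ⟨hxT, hxL⟩
  exact hle (show (⟨x, hxT⟩ : T) ∈ L' from hxL)

end Main

end Cfsg.Agent.Lib.BlockCoverDefect
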