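import Mathlib

/-!
# Transfer to an index `|G:H|` coset space, evaluated block by block

`eps μ g q` is the usual cocycle on `G ⧸ H` of a homomorphism `μ : H → A`.  For a finite set `B` of
cosets and `g : G`, `nu μ B g` is the product of `eps μ g w`, `w ∈ B`.  A `T`-orbit of cosets has
trivial product as soon as some block (an orbit `S q`, `T_q ≤ S ≤ T`) has trivial product.
-/

set_option autoImplicit false
set_option linter.unusedSectionVars false
set_option linter.unusedVariables false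
set_option linter.style.haveILetI false
set_option linter.unusedSimpArgs false

namespace Cfsg.Agent.Lib.BlockTransfer

open Finset

variable {G : Type*} [Group G] {H : Subgroup G} {A : Type*} [CommGroup A]

theorem mem_aux (g : G) (q : G ⧸ H) : (g • q).out⁻¹ * g * q.out ∈ H := by
  rw [mul_assoc, ← QuotientGroup.eq]
  rw [QuotientGroup.out_eq']
  have : ((g * q.out : G) : G ⧸ H) = g • ((q.out : G) : G ⧸ H) := rfl
  rw [this, QuotientGroup.out_eq']

/-- The cocycle of `μ` on the coset space. -/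
noncomputable def eps (μ : H →* A) (g : G) (q : G ⧸ H) : A :=
  μ ⟨(g • q).out⁻¹ * g * q.out, mem_aux g q⟩

theorem eps_mul (μ : H →* A) (g h : G) (q : G ⧸ H) :
    eps μ (g * h) q = eps μ g (h • q) * eps μ h q := by
  unfold eps
  rw [← map_mul]
  congr 1
  apply Subtype.ext
  simp only [Subgroup.coe_mul, mul_smul]
  group

theorem eps_one (μ : H →* A) (q : G ⧸ H) : eps μ (1 : G) q = 1 := by
  have h := eps_mul μ 1 1 q
  rw [one_mul, one_smul] at h
  exact (mul_eq_left.mp h.symm)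

/-- The product of the cocycle over a finite set of cosets. -/
noncomputable def nu (μ : H →* A) (B : Finset (G ⧸ H)) (g : G) : A := ∏ w ∈ B, eps μ g w

/-- `g` maps `B` to itself. -/
def Stab (B : Finset (G ⧸ H)) (g : G) : Prop := ∀ w ∈ B, g • w ∈ B

theorem prod_smul_of_stab {B : Finset (G ⧸ H)} {g : G} (hg : Stab B g) (f : G ⧸ H → A) :
    ∏ w ∈ B, f (g • w) = ∏ w ∈ B, f w := by
  classical
  have hinj : Set.InjOn (fun w : G ⧸ H => g • w) (B : Set (G ⧸ H)) :=
    (MulAction.injective g).injOn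
  have hsub : B.image (fun w => g • w) ⊆ B := by
    intro x hx
    obtain ⟨w, hw, rfl⟩ := Finset.mem_image.1 hx
    exact hg w hw
  have hcard : (B.image (fun w => g • w)).card = B.card := Finset.card_image_of_injOn hinj
  have heq : B.image (fun w => g • w) = B := Finset.eq_of_subset_of_card_le hsub hcard.ge
  calc ∏ w ∈ B, f (g • w) = ∏ w ∈ B.image (fun w => g • w), f w :=
        (Finset.prod_image (fun a _ b _ h => MulAction.injective g h)).symm
    _ = ∏ w ∈ B, f w := by rw [heq]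

theorem nu_mul (μ : H →* A) {B : Finset (G ⧸ H)} (g : G) {h : G} (hh : Stab B h) :
    nu μ B (g * h) = nu μ B g * nu μ B h := by
  unfold nu
  calc ∏ w ∈ B, eps μ (g * h) w = ∏ w ∈ B, (eps μ g (h • w) * eps μ h w) :=
        Finset.prod_congr rfl fun w _ => eps_mul μ g h w
    _ = (∏ w ∈ B, eps μ g (h • w)) * ∏ w ∈ B, eps μ h w := Finset.prod_mul_distrib
    _ = (∏ w ∈ B, eps μ g w) * ∏ w ∈ B, eps μ h w := by
        rw [prod_smul_of_stab hh (fun w => eps μ g w)]

theorem nu_one (μ : H →* A) (B : Finset (G ⧸ H)) : nu μ B (1 : G) = 1 := by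
  unfold nu
  exact Finset.prod_eq_one fun w _ => eps_one μ w

/-- Translate of a finite set of cosets. -/
noncomputable def tr (e : G) (B : Finset (G ⧸ H)) : Finset (G ⧸ H) :=
  B.map (MulAction.toPerm e).toEmbedding

theorem mem_tr {e : G} {B : Finset (G ⧸ H)} {w : G ⧸ H} : w ∈ tr e B ↔ e⁻¹ • w ∈ B := by
  unfold tr
  simp only [Finset.mem_map_equiv, Equiv.coe_toEmbedding]
  rfl

theorem smul_mem_tr {e : G} {B : Finset (G ⧸ H)} {w : G ⧸ H} (hw : w ∈ B) : e • w ∈ tr e B := by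
  rw [mem_tr, inv_smul_smul]; exact hw

theorem prod_tr (e : G) (B : Finset (G ⧸ H)) (f : G ⧸ H → A) :
    ∏ w ∈ tr e B, f w = ∏ w ∈ B, f (e • w) := by
  unfold tr
  rw [Finset.prod_map]
  rfl

theorem tr_tr (e e' : G) (B : Finset (G ⧸ H)) : tr e (tr e' B) = tr (e * e') B := by
  ext w
  simp only [mem_tr, mul_inv_rev, mul_smul]

theorem tr_one (B : Finset (G ⧸ H)) : tr (1 : G) B = B := by
  ext w
  simp only [mem_tr, inv_one, one_smul]

/-- `nu` on a translate, in terms of the cocycle of the translating element. -/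
theorem nu_tr_eq (μ : H →* A) (t u : G) (B : Finset (G ⧸ H)) :
    nu μ (tr u B) t = nu μ B (t * u) * (nu μ B u)⁻¹ := by
  unfold nu
  rw [prod_tr, ← Finset.prod_inv_distrib, ← Finset.prod_mul_distrib]
  refine Finset.prod_congr rfl fun w _ => ?_
  rw [eps_mul]
  simp

theorem nu_tr (μ : H →* A) {e p : G} {B : Finset (G ⧸ H)} (hs : Stab B (e⁻¹ * p * e)) :
    nu μ (tr e B) p = nu μ B (e⁻¹ * p * e) := by
  rw [nu_tr_eq]
  have : p * e = e * (e⁻¹ * p * e) := by group
  rw [this, nu_mul μ e hs]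
  simp

section Finite

variable [Finite G]

/-- The orbit of `q` under a subgroup, as a finite set. -/
noncomputable def orb (S : Subgroup G) (q : G ⧸ H) : Finset (G ⧸ H) :=
  (Set.toFinite {w : G ⧸ H | ∃ s ∈ S, s • q = w}).toFinset

theorem mem_orb {S : Subgroup G} {q w : G ⧸ H} : w ∈ orb S q ↔ ∃ s ∈ S, s • q = w := by
  unfold orb
  simp

theorem stab_orb {S : Subgroup G} {q : G ⧸ H} {s : G} (hs : s ∈ S) : Stab (orb S q) s := by
  intro w hw
  obtain ⟨s', hs', rfl⟩ := mem_orb.1 hw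
  exact mem_orb.2 ⟨s * s', S.mul_mem hs hs', by rw [mul_smul]⟩

theorem self_mem_orb (S : Subgroup G) (q : G ⧸ H) : q ∈ orb S q :=
  mem_orb.2 ⟨1, S.one_mem, one_smul _ _⟩

/-- `S` is a block group for `q` in `T`: it contains the stabilizer of `q` in `T`. -/
def Blk (T S : Subgroup G) (q : G ⧸ H) : Prop := S ≤ T ∧ ∀ t ∈ T, t • q = q → t ∈ S

/-- If the block `S q` has trivial `nu` on `S` then the orbit `T q` has trivial `nu`. -/
theorem nu_orb_eq_one (μ : H →* A) {T S : Subgroup G} {q : G ⧸ H} (hB : Blk T S q)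
    (hν : ∀ s ∈ S, nu μ (orb S q) s = 1) {t : G} (ht : t ∈ T) : nu μ (orb T q) t = 1 := by
  classical
  obtain ⟨hST, hstab⟩ := hB
  set B := orb S q with hBdef
  haveI : Finite (Finset (G ⧸ H)) := inferInstance
  let 𝔅 : Finset (Finset (G ⧸ H)) :=
    (Set.toFinite {β : Finset (G ⧸ H) | ∃ u ∈ T, β = tr u B}).toFinset
  have h𝔅 : ∀ β, β ∈ 𝔅 ↔ ∃ u ∈ T, β = tr u B := by
    intro β
    simp [𝔅]
  -- translates by `u`, `u'` agree iff they have the same `S`-coset
  have hcoset : ∀ u ∈ T, ∀ u' ∈ T, ∀ w ∈ B, ∀ w' ∈ B, u • w = u' • w' → ∃ s ∈ S, u' = u * s := by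
    intro u hu u' hu' w hw w' hw' h
    obtain ⟨s, hs, rfl⟩ := mem_orb.1 hw
    obtain ⟨s', hs', rfl⟩ := mem_orb.1 hw'
    have h1 : (u * s)⁻¹ * (u' * s') ∈ T :=
      T.mul_mem (T.inv_mem (T.mul_mem hu (hST hs))) (T.mul_mem hu' (hST hs'))
    have h2 : ((u * s)⁻¹ * (u' * s')) • q = q := by
      rw [mul_smul, mul_smul u' s', ← h, ← mul_smul u s, inv_smul_smul]
    have h3 := hstab _ h1 h2
    refine ⟨s * ((u * s)⁻¹ * (u' * s')) * s'⁻¹, S.mul_mem (S.mul_mem hs h3) (S.inv_mem hs'), ?_⟩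
    group
  have heqtr : ∀ u ∈ T, ∀ u' ∈ T, tr u B = tr u' B → ∃ s ∈ S, u' = u * s := by
    intro u hu u' hu' h
    have h1 : u' • q ∈ tr u B := by
      rw [h]; exact smul_mem_tr (self_mem_orb S q)
    rw [mem_tr] at h1
    exact hcoset u hu u' hu' _ h1 q (self_mem_orb S q) (by rw [smul_inv_smul])
  let F : Finset (G ⧸ H) → A := fun β => if h : ∃ u ∈ T, β = tr u B then nu μ B h.choose else 1
  have hF : ∀ u ∈ T, F (tr u B) = nu μ B u := by
    intro u hu
    have h : ∃ v ∈ T, tr u B = tr v B := ⟨u, hu, rfl⟩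
    simp only [F, dif_pos h]
    obtain ⟨h1, h2⟩ := h.choose_spec
    obtain ⟨s, hs, e⟩ := heqtr _ h1 u hu h2.symm
    have h5 : nu μ B u = nu μ B h.choose * nu μ B s := by
      conv_lhs => rw [e]
      exact nu_mul μ _ (stab_orb hs)
    rw [h5, hν s hs, mul_one]
  -- the orbit is a disjoint union of translates
  have hunion : orb T q = 𝔅.biUnion id := by
    ext w
    simp only [Finset.mem_biUnion, id]
    constructor
    · intro hw
      obtain ⟨u, hu, rfl⟩ := mem_orb.1 hw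
      exact ⟨tr u B, (h𝔅 _).2 ⟨u, hu, rfl⟩, smul_mem_tr (self_mem_orb S q)⟩
    · rintro ⟨β, hβ, hw⟩
      obtain ⟨u, hu, rfl⟩ := (h𝔅 _).1 hβ
      rw [mem_tr] at hw
      obtain ⟨s, hs, e⟩ := mem_orb.1 hw
      refine mem_orb.2 ⟨u * s, T.mul_mem hu (hST hs), ?_⟩
      rw [mul_smul, e, smul_inv_smul]
  have hdisj : (𝔅 : Set (Finset (G ⧸ H))).PairwiseDisjoint id := by
    intro β hβ β' hβ' hne
    obtain ⟨u, hu, rfl⟩ := (h𝔅 _).1 (Finset.mem_coe.1 hβ)
    obtain ⟨u', hu', rfl⟩ := (h𝔅 _).1 (Finset.mem_coe.1 hβ')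
    simp only [Function.onFun, id]
    rw [Finset.disjoint_left]
    intro w hw hw'
    apply hne
    rw [mem_tr] at hw hw'
    obtain ⟨s, hs, e⟩ := hcoset u hu u' hu' _ hw _ hw' (by rw [smul_inv_smul, smul_inv_smul])
    rw [e, ← tr_tr]
    congr 1
    ext x
    rw [mem_tr]
    constructor
    · intro hx
      exact stab_orb (S.inv_mem hs) x hx
    · intro hx
      have := stab_orb hs _ hx
      rwa [smul_inv_smul] at this
  unfold nu
  rw [hunion, Finset.prod_biUnion hdisj]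
  have h1 : ∀ β ∈ 𝔅, ∏ w ∈ id β, eps μ t w = F (tr t β) * (F β)⁻¹ := by
    intro β hβ
    obtain ⟨u, hu, rfl⟩ := (h𝔅 _).1 hβ
    have := nu_tr_eq μ t u B
    unfold nu at this
    simp only [id]
    rw [tr_tr, hF _ hu, hF _ (T.mul_mem ht hu)]
    exact this
  rw [Finset.prod_congr rfl h1, Finset.prod_mul_distrib, Finset.prod_inv_distrib]
  have h2 : ∏ β ∈ 𝔅, F (tr t β) = ∏ β ∈ 𝔅, F β := by
    refine Finset.prod_nbij' (fun β => tr t β) (fun β => tr t⁻¹ β) ?_ ?_ ?_ ?_ ?_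
    · intro β hβ
      obtain ⟨u, hu, rfl⟩ := (h𝔅 _).1 hβ
      exact (h𝔅 _).2 ⟨t * u, T.mul_mem ht hu, tr_tr _ _ _⟩
    · intro β hβ
      obtain ⟨u, hu, rfl⟩ := (h𝔅 _).1 hβ
      exact (h𝔅 _).2 ⟨t⁻¹ * u, T.mul_mem (T.inv_mem ht) hu, tr_tr _ _ _⟩
    · intro β _
      rw [tr_tr, inv_mul_cancel, tr_one]
    · intro β _
      rw [tr_tr, mul_inv_cancel, tr_one]
    · intro β _
      rfl
  rw [h2, mul_inv_cancel]

/-- The transfer as a homomorphism. -/
noncomputable def transferHom (μ : H →* A) : G →* A := by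
  classical
  haveI := Fintype.ofFinite (G ⧸ H)
  exact MonoidHom.mk' (fun g => nu μ Finset.univ g) (fun g h => by
    apply nu_mul μ g
    intro w _
    exact Finset.mem_univ _)

theorem transferHom_apply [Fintype (G ⧸ H)] (μ : H →* A) (g : G) :
    transferHom μ g = nu μ Finset.univ g := by
  classical
  simp only [transferHom, MonoidHom.mk'_apply]
  congr!

/-- The main formula: if the transfer is trivial and all orbits of `T ≤ H` other than the trivial
one have trivial `nu`, then `μ` is trivial on `T`. -/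
theorem mu_eq_one (μ : H →* A) {T : Subgroup G} (hTH : T ≤ H) (hV : ∀ g, transferHom μ g = 1)
    (hblock : ∀ q : G ⧸ H, q ≠ ((1 : G) : G ⧸ H) → ∃ S : Subgroup G, Blk T S q ∧
      ∀ s ∈ S, nu μ (orb S q) s = 1) {t : G} (ht : t ∈ T) : μ ⟨t, hTH ht⟩ = 1 := by
  classical
  letI := Fintype.ofFinite (G ⧸ H)
  have h0 := hV t
  rw [transferHom_apply] at h0
  -- orbits
  set q₀ : G ⧸ H := ((1 : G) : G ⧸ H) with hq₀
  have hfix : ∀ x ∈ T, x • q₀ = q₀ := by
    intro x hx
    rw [hq₀]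
    have : x • ((1 : G) : G ⧸ H) = ((x * 1 : G) : G ⧸ H) := rfl
    rw [this, mul_one, QuotientGroup.eq]
    simpa using hTH hx
  have horbq₀ : orb T q₀ = {q₀} := by
    ext w
    rw [mem_orb, Finset.mem_singleton]
    constructor
    · rintro ⟨s, hs, rfl⟩
      exact hfix s hs
    · rintro rfl
      exact ⟨1, T.one_mem, one_smul _ _⟩
  let 𝔒 : Finset (Finset (G ⧸ H)) := Finset.univ.image (fun q => orb T q)
  have hunion : (Finset.univ : Finset (G ⧸ H)) = 𝔒.biUnion id := by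
    ext w
    simp only [Finset.mem_univ, Finset.mem_biUnion, id, true_iff]
    exact ⟨orb T w, Finset.mem_image_of_mem _ (Finset.mem_univ _), self_mem_orb T w⟩
  have hdisj : (𝔒 : Set (Finset (G ⧸ H))).PairwiseDisjoint id := by
    intro β hβ β' hβ' hne
    obtain ⟨q, -, rfl⟩ := Finset.mem_image.1 (Finset.mem_coe.1 hβ)
    obtain ⟨q', -, rfl⟩ := Finset.mem_image.1 (Finset.mem_coe.1 hβ')
    simp only [Function.onFun, id]
    rw [Finset.disjoint_left]
    intro w hw hw'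
    apply hne
    obtain ⟨s, hs, rfl⟩ := mem_orb.1 hw
    obtain ⟨s', hs', e⟩ := mem_orb.1 hw'
    ext x
    rw [mem_orb, mem_orb]
    constructor
    · rintro ⟨y, hy, rfl⟩
      refine ⟨y * s⁻¹ * s', T.mul_mem (T.mul_mem hy (T.inv_mem hs)) hs', ?_⟩
      rw [mul_smul, e, mul_smul, inv_smul_smul]
    · rintro ⟨y, hy, rfl⟩
      refine ⟨y * s'⁻¹ * s, T.mul_mem (T.mul_mem hy (T.inv_mem hs')) hs, ?_⟩
      rw [mul_smul, mul_smul, ← e, inv_smul_smul]
  unfold nu at h0
  rw [hunion, Finset.prod_biUnion hdisj] at h0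
  have hq₀𝔒 : orb T q₀ ∈ 𝔒 := Finset.mem_image_of_mem _ (Finset.mem_univ _)
  rw [Finset.prod_eq_single_of_mem (orb T q₀) hq₀𝔒] at h0
  · simp only [id] at h0
    rw [horbq₀, Finset.prod_singleton] at h0
    rw [← h0]
    unfold eps
    have hq : (t • q₀) = q₀ := hfix t ht
    have hmem : q₀.out ∈ H := by
      have h1 : ((q₀.out : G) : G ⧸ H) = ((1 : G) : G ⧸ H) := QuotientGroup.out_eq' q₀
      rw [QuotientGroup.eq] at h1
      simpa using H.inv_mem h1
    have e : (⟨(t • q₀).out⁻¹ * t * q₀.out, mem_aux t q₀⟩ : H) =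
        (⟨q₀.out, hmem⟩ : H)⁻¹ * ⟨t, hTH ht⟩ * ⟨q₀.out, hmem⟩ := by
      apply Subtype.ext
      simp [hq]
    rw [e, map_mul, map_mul, map_inv]
    rw [mul_comm (μ _)⁻¹, mul_assoc, inv_mul_cancel, mul_one]
  · intro β hβ hne
    obtain ⟨q, -, rfl⟩ := Finset.mem_image.1 hβ
    have hqne : q ≠ q₀ := by
      rintro rfl
      exact hne rfl
    obtain ⟨S, hS, hν⟩ := hblock q hqne
    exact nu_orb_eq_one μ hS hν ht

/-! ### Index two steps -/

/-- `S ∪ e S`, when `e` normalizes `S` and `e² ∈ S`. -/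
def ext (S : Subgroup G) (e : G) (hn : ∀ p ∈ S, e⁻¹ * p * e ∈ S) (h2 : e * e ∈ S) : Subgroup G where
  carrier := {x | x ∈ S ∨ e⁻¹ * x ∈ S}
  mul_mem' := by
    rintro a b (ha | ha) (hb | hb)
    · exact Or.inl (S.mul_mem ha hb)
    · right
      have : e⁻¹ * (a * b) = (e⁻¹ * a * e) * (e⁻¹ * b) := by group
      rw [this]
      exact S.mul_mem (hn a ha) hb
    · right
      have : e⁻¹ * (a * b) = (e⁻¹ * a) * b := by group
      rw [this]
      exact S.mul_mem ha hb
    · left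
      have : a * b = (e * e) * (e⁻¹ * (e⁻¹ * a) * e) * (e⁻¹ * b) := by group
      rw [this]
      exact S.mul_mem (S.mul_mem h2 (hn _ ha)) hb
  one_mem' := Or.inl S.one_mem
  inv_mem' := by
    rintro a (ha | ha)
    · exact Or.inl (S.inv_mem ha)
    · right
      have : e⁻¹ * a⁻¹ = (e⁻¹ * (e⁻¹ * a)⁻¹ * e) * (e * e)⁻¹ := by group
      rw [this]
      exact S.mul_mem (hn _ (S.inv_mem ha)) (S.inv_mem h2)

section Ext

variable {S : Subgroup G} {e : G} {hn : ∀ p ∈ S, e⁻¹ * p * e ∈ S} {h2 : e * e ∈ S}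

theorem mem_ext {x : G} : x ∈ ext S e hn h2 ↔ x ∈ S ∨ e⁻¹ * x ∈ S := Iff.rfl

theorem le_ext : S ≤ ext S e hn h2 := fun _ h => Or.inl h

theorem self_mem_ext : e ∈ ext S e hn h2 := Or.inr (by simpa using S.one_mem)

theorem blk_ext {T : Subgroup G} {q : G ⧸ H} (hB : Blk T S q) (he : e ∈ T) :
    Blk T (ext S e hn h2) q := by
  refine ⟨?_, fun t ht h => le_ext (hB.2 t ht h)⟩
  rintro x (hx | hx)
  · exact hB.1 hx
  · have : x = e * (e⁻¹ * x) := by group
    rw [this]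
    exact T.mul_mem he (hB.1 hx)

open Classical in
theorem orb_ext_eq {q : G ⧸ H} :
    orb (ext S e hn h2) q = orb S q ∪ tr e (orb S q) := by
  ext w
  rw [Finset.mem_union, mem_orb, mem_orb, mem_tr, mem_orb]
  constructor
  · rintro ⟨s, hs | hs, rfl⟩
    · exact Or.inl ⟨s, hs, rfl⟩
    · exact Or.inr ⟨e⁻¹ * s, hs, by rw [mul_smul]⟩
  · rintro (⟨s, hs, rfl⟩ | ⟨s, hs, h⟩)
    · exact ⟨s, le_ext hs, rfl⟩
    · refine ⟨e * s, Or.inr (by simpa using hs), ?_⟩
      rw [mul_smul, h, smul_inv_smul]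

theorem disjoint_ext {T : Subgroup G} {q : G ⧸ H} (hB : Blk T S q) (heT : e ∈ T) (he : e ∉ S) :
    Disjoint (orb S q) (tr e (orb S q)) := by
  rw [Finset.disjoint_left]
  intro w hw hw'
  rw [mem_tr] at hw'
  obtain ⟨s, hs, rfl⟩ := mem_orb.1 hw
  obtain ⟨s', hs', h⟩ := mem_orb.1 hw'
  apply he
  have h1 : (s⁻¹ * e * s') • q = q := by
    rw [mul_smul, h, mul_smul, smul_inv_smul, inv_smul_smul]
  have h3 := hB.2 _ (T.mul_mem (T.mul_mem (T.inv_mem (hB.1 hs)) heT) (hB.1 hs')) h1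
  have : e = s * (s⁻¹ * e * s') * s'⁻¹ := by group
  rw [this]
  exact S.mul_mem (S.mul_mem hs h3) (S.inv_mem hs')

theorem nu_ext_of_mem (μ : H →* A) {T : Subgroup G} {q : G ⧸ H} (hB : Blk T S q) (heT : e ∈ T)
    (he : e ∉ S) {p : G} (hp : p ∈ S) :
    nu μ (orb (ext S e hn h2) q) p = nu μ (orb S q) p * nu μ (orb S q) (e⁻¹ * p * e) := by
  classical
  rw [orb_ext_eq]
  unfold nu
  rw [Finset.prod_union (disjoint_ext hB heT he)]
  have := nu_tr μ (e := e) (p := p) (B := orb S q) (stab_orb (hn p hp))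
  unfold nu at this
  rw [this]

theorem nu_ext_self (μ : H →* A) {T : Subgroup G} {q : G ⧸ H} (hB : Blk T S q) (heT : e ∈ T)
    (he : e ∉ S) :
    nu μ (orb (ext S e hn h2) q) e = nu μ (orb S q) (e * e) := by
  classical
  rw [orb_ext_eq]
  unfold nu
  rw [Finset.prod_union (disjoint_ext hB heT he), prod_tr, ← Finset.prod_mul_distrib]
  refine Finset.prod_congr rfl fun w _ => ?_
  rw [eps_mul, mul_comm]

/-- If `nu` is trivial on `S` (on the bigger orbit) and at `e`, it is trivial on `ext S e`. -/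
theorem nu_ext_all (μ : H →* A) {q : G ⧸ H}
    (h1 : ∀ p ∈ S, nu μ (orb (ext S e hn h2) q) p = 1) (h3 : nu μ (orb (ext S e hn h2) q) e = 1)
    {x : G} (hx : x ∈ ext S e hn h2) : nu μ (orb (ext S e hn h2) q) x = 1 := by
  rcases hx with hx | hx
  · exact h1 x hx
  · have : x = e * (e⁻¹ * x) := by group
    rw [this, nu_mul μ e (stab_orb (le_ext hx)), h3, h1 _ hx, one_mul]

end Ext

/-- A new element normalizing `S`, from a normal subgroup of a `2`-group not inside `S`. -/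
theorem exists_norm_ext {p : ℕ} [Fact p.Prime] {T S E : Subgroup G} (h2 : IsPGroup p T) (hST : S ≤ T)
    (hET : E ≤ T)
    (hn : ∀ t ∈ T, ∀ x ∈ E, t * x * t⁻¹ ∈ E) (hnot : ¬ E ≤ S) :
    ∃ e ∈ E, e ∉ S ∧ ∀ p ∈ S, e⁻¹ * p * e ∈ S := by
  classical
  -- the product `S E`
  let U : Subgroup G :=
    { carrier := {x | ∃ s ∈ S, ∃ y ∈ E, x = s * y}
      mul_mem' := by
        rintro _ _ ⟨s, hs, y, hy, rfl⟩ ⟨s', hs', y', hy', rfl⟩
        refine ⟨s * s', S.mul_mem hs hs', s'⁻¹ * y * s' * y', ?_, by group⟩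
        refine E.mul_mem ?_ hy'
        have := hn s'⁻¹ (T.inv_mem (hST hs')) y hy
        simpa using this
      one_mem' := ⟨1, S.one_mem, 1, E.one_mem, by simp⟩
      inv_mem' := by
        rintro _ ⟨s, hs, y, hy, rfl⟩
        refine ⟨s⁻¹, S.inv_mem hs, s * y⁻¹ * s⁻¹, hn s (hST hs) _ (E.inv_mem hy), by group⟩ }
  have hUT : U ≤ T := by
    rintro _ ⟨s, hs, y, hy, rfl⟩
    exact T.mul_mem (hST hs) (hET hy)
  have hU2 : IsPGroup p U := h2.to_le hUT
  haveI : Group.IsNilpotent U := by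
    haveI : Finite U := inferInstance
    exact hU2.isNilpotent
  let V : Subgroup U := S.subgroupOf U
  have hVne : V ≠ ⊤ := by
    intro h
    apply hnot
    intro y hy
    have hyU : y ∈ U := ⟨1, S.one_mem, y, hy, by simp⟩
    have : (⟨y, hyU⟩ : U) ∈ V := by rw [h]; trivial
    exact Subgroup.mem_subgroupOf.1 this
  have hlt : V < Subgroup.normalizer (V : Set U) :=
    (Group.normalizerCondition_of_isNilpotent) V (lt_of_le_of_ne le_top hVne)
  obtain ⟨x, hxN, hxV⟩ := SetLike.exists_of_lt hlt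
  obtain ⟨s, hs, y, hy, hxy⟩ := x.2
  refine ⟨y, hy, ?_, ?_⟩
  · intro hyS
    apply hxV
    rw [Subgroup.mem_subgroupOf, hxy]
    exact S.mul_mem hs hyS
  · intro q hq
    have hsN : s⁻¹ * (x : G) = y := by rw [hxy]; group
    have hqU : q ∈ U := ⟨q, hq, 1, E.one_mem, by simp⟩
    have hq' : s * q * s⁻¹ ∈ S := S.mul_mem (S.mul_mem hs hq) (S.inv_mem hs)
    have hq'U : s * q * s⁻¹ ∈ U := ⟨s * q * s⁻¹, hq', 1, E.one_mem, by simp⟩
    have h3 : (⟨s * q * s⁻¹, hq'U⟩ : U) ∈ V := Subgroup.mem_subgroupOf.2 hq'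
    have h4 : x⁻¹ * ⟨s * q * s⁻¹, hq'U⟩ * x ∈ V := by
      have := (Subgroup.mem_normalizer_iff.1 (Subgroup.inv_mem _ hxN) ⟨s * q * s⁻¹, hq'U⟩).1 h3
      simpa using this
    have h5 := Subgroup.mem_subgroupOf.1 h4
    have e : y⁻¹ * q * y = (x : G)⁻¹ * (s * q * s⁻¹) * x := by
      rw [← hsN]; group
    rw [e]
    simpa using h5

end Finite

end Cfsg.Agent.Lib.BlockTransfer
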