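import Mathlib
import Cfsg.Agent.Lib.ThompsonTransfer

/-!
# Thompson transfer with a `2`-subgroup of the centralizer

If `G` has no subgroup of index two, `S` has odd index, `M` has index two in `S`, `x` is a `2`-element
all of whose proper even powers fuse only into `M` (from `S`), and `D` is a `2`-subgroup of `C(x)`, then
there is `g` with `g⁻¹ x g ∈ M` and `g⁻¹ D g ≤ S`.
-/

set_option autoImplicit false
set_option linter.style.haveILetI false

namespace Cfsg.Agent.Lib.ThompsonFix

open MulAction Subgroup Cfsg.Agent.Lib.ThompsonTransfer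

variable {G : Type*} [Group G]

theorem conj_mem_iff_of_coset {S M : Subgroup G} (hMS : M ≤ S) (hM : M.relIndex S = 2) {x h h' : G}
    (hh : ((h : G) : G ⧸ S) = ((h' : G) : G ⧸ S)) :
    h⁻¹ * x * h ∈ M ↔ h'⁻¹ * x * h' ∈ M := by
  have hs : h⁻¹ * h' ∈ S := QuotientGroup.eq.1 hh
  set s := h⁻¹ * h' with hsdef
  have hh' : h' = h * s := by rw [hsdef]; group
  have hnormal : (M.subgroupOf S).Normal := Subgroup.normal_of_index_eq_two hM
  have hconj : ∀ (a : G) (t : G), t ∈ S → a ∈ M → t⁻¹ * a * t ∈ M := by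
    intro a t ht ha
    have haS : a ∈ S := hMS ha
    have h1 : (⟨a, haS⟩ : S) ∈ M.subgroupOf S := ha
    have h2 := hnormal.conj_mem _ h1 (⟨t, ht⟩⁻¹ : S)
    have h3 : (((⟨t, ht⟩⁻¹ : S) * ⟨a, haS⟩ * (⟨t, ht⟩⁻¹ : S)⁻¹ : S) : G) ∈ M := h2
    simpa using h3
  rw [hh']
  constructor
  · intro h1
    have := hconj _ s hs h1
    have e : (h * s)⁻¹ * x * (h * s) = s⁻¹ * (h⁻¹ * x * h) * s := by group
    rw [e]; exact this
  · intro h1
    have e : h⁻¹ * x * h = s * ((h * s)⁻¹ * x * (h * s)) * s⁻¹ := by group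
    rw [e]
    have := hconj _ s⁻¹ (S.inv_mem hs) h1
    simpa using this

theorem exists_conj_le [Finite G] (hG : ∀ H : Subgroup G, H.index ≠ 2) (S M : Subgroup G)
    (hMS : M ≤ S) (hM : M.relIndex S = 2) (hS : ¬ 2 ∣ S.index) (x : G) (n : ℕ) (hx : x ^ 2 ^ n = 1)
    (hkey : ∀ (m : ℕ) (g : G), 2 ∣ m → m ≠ 0 → g⁻¹ * x ^ m * g ∈ S → g⁻¹ * x ^ m * g ∈ M)
    (D : Subgroup G) (hD : IsPGroup 2 D) (hDx : ∀ d ∈ D, d * x = x * d) :
    ∃ g : G, g⁻¹ * x * g ∈ M ∧ ∀ d ∈ D, g⁻¹ * d * g ∈ S := by
  classical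
  haveI : Fact (Nat.Prime 2) := ⟨Nat.prime_two⟩
  letI : Fintype (Quotient (orbitRel (zpowers x) (G ⧸ S))) := Fintype.ofFinite _
  -- parity from the transfer
  have h1 := even_card_not_mem hG S M hMS hM x
  have hpp : ∀ q : G ⧸ S, Function.IsPeriodicPt (x • ·) (2 ^ n) q := by
    intro q
    rw [Function.IsPeriodicPt, Function.IsFixedPt, smul_iterate, hx]
    simp
  have hper : ∀ q : G ⧸ S, Function.minimalPeriod (x • ·) q = 1 ∨ 2 ∣ Function.minimalPeriod (x • ·) q := by
    intro q
    have hdvd : Function.minimalPeriod (x • ·) q ∣ 2 ^ n := (hpp q).minimalPeriod_dvd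
    obtain ⟨k, _, hk⟩ := (Nat.dvd_prime_pow Nat.prime_two).1 hdvd
    rcases k with _ | k
    · left; simpa using hk
    · right; rw [hk]; exact dvd_pow_self 2 (Nat.succ_ne_zero k)
  have hfilter : (Finset.univ.filter fun q : Quotient (orbitRel (zpowers x) (G ⧸ S)) =>
      q.out.out⁻¹ * x ^ Function.minimalPeriod (x • ·) q.out * q.out.out ∉ M) =
      Finset.univ.filter fun q : Quotient (orbitRel (zpowers x) (G ⧸ S)) =>
        Function.minimalPeriod (x • ·) q.out = 1 ∧ q.out.out⁻¹ * x * q.out.out ∉ M := by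
    ext q
    simp only [Finset.mem_filter, Finset.mem_univ, true_and]
    have hq0 : Function.minimalPeriod (x • ·) q.out ≠ 0 :=
      (Function.minimalPeriod_pos_of_mem_periodicPts ⟨2 ^ n, by positivity, hpp _⟩).ne'
    constructor
    · intro hq
      rcases hper q.out with h | h
      · refine ⟨h, ?_⟩
        rw [h, pow_one] at hq
        exact hq
      · exact absurd (hkey _ _ h hq0 (QuotientGroup.out_conj_pow_minimalPeriod_mem S x q.out)) hq
    · rintro ⟨hq, hq'⟩
      rw [hq, pow_one]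
      exact hq'
  rw [hfilter] at h1
  -- the sets of fixed points
  letI : Fintype (G ⧸ S) := Fintype.ofFinite _
  have hfixed_iff : ∀ (a h : G), a • ((h : G) : G ⧸ S) = (h : G ⧸ S) ↔ h⁻¹ * a * h ∈ S := by
    intro a h
    have : a • ((h : G) : G ⧸ S) = ((a * h : G) : G ⧸ S) := rfl
    rw [this, eq_comm, QuotientGroup.eq]
    have e : h⁻¹ * (a * h) = h⁻¹ * a * h := by group
    rw [e]
  -- `Fp` : fixed points; `Fn`, those outside `M`
  let Fp : Finset (G ⧸ S) := Finset.univ.filter fun q => x • q = q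
  let Fn : Finset (G ⧸ S) := Fp.filter fun q => q.out⁻¹ * x * q.out ∉ M
  let Fm : Finset (G ⧸ S) := Fp.filter fun q => q.out⁻¹ * x * q.out ∈ M
  -- `|Fp|` is odd
  have hFpodd : Odd Fp.card := by
    have hzp : IsPGroup 2 (zpowers x) := by
      apply IsPGroup.of_card (n := (orderOf x).factorization 2)
      rw [Nat.card_zpowers]
      have hd : orderOf x ∣ 2 ^ n := orderOf_dvd_of_pow_eq_one hx
      obtain ⟨k, _, hk⟩ := (Nat.dvd_prime_pow Nat.prime_two).1 hd
      rw [hk]
      simp [Nat.Prime.factorization Nat.prime_two]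
    have hmod := hzp.card_modEq_card_fixedPoints (G ⧸ S)
    have hfix : Nat.card (fixedPoints (zpowers x) (G ⧸ S)) = Fp.card := by
      have hiff : ∀ q : G ⧸ S, q ∈ fixedPoints (zpowers x) (G ⧸ S) ↔ x • q = q := by
        intro q
        constructor
        · intro h
          exact h ⟨x, mem_zpowers x⟩
        · rintro h ⟨g, k, rfl⟩
          have h3 : x ∈ stabilizer G q := mem_stabilizer_iff.2 h
          exact mem_stabilizer_iff.1 ((stabilizer G q).zpow_mem h3 k)
      have h4 : Nat.card (fixedPoints (zpowers x) (G ⧸ S)) = Nat.card {q : G ⧸ S // x • q = q} :=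
        Nat.card_congr (Equiv.subtypeEquivRight hiff)
      rw [h4, Nat.card_eq_fintype_card, Fintype.card_subtype]
    have hodd : Odd (Nat.card (G ⧸ S)) := by
      rcases Nat.even_or_odd (Nat.card (G ⧸ S)) with h | h
      · exact absurd h.two_dvd hS
      · exact h
    rw [← hfix]
    have h5 : Nat.card (fixedPoints (zpowers x) (G ⧸ S)) % 2 = Nat.card (G ⧸ S) % 2 := hmod.symm
    exact Nat.odd_iff.2 (h5.trans (Nat.odd_iff.1 hodd))
  have hFnEven : Even Fn.card := by
    have e : (Finset.univ.filter fun q : Quotient (orbitRel (zpowers x) (G ⧸ S)) =>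
        Function.minimalPeriod (x • ·) q.out = 1 ∧ q.out.out⁻¹ * x * q.out.out ∉ M).card = Fn.card := by
      apply Finset.card_bij (fun q _ => q.out)
      · intro q hq
        simp only [Finset.mem_filter, Finset.mem_univ, true_and] at hq
        simp only [Fn, Fp, Finset.mem_filter, Finset.mem_univ, true_and]
        exact ⟨Function.minimalPeriod_eq_one_iff_isFixedPt.1 hq.1, hq.2⟩
      · intro q _ q' _ h
        have h2 := congrArg (Quotient.mk (orbitRel (zpowers x) (G ⧸ S))) h
        simpa using h2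
      · intro p hp
        simp only [Fn, Fp, Finset.mem_filter, Finset.mem_univ, true_and] at hp
        have hout : (Quotient.mk (orbitRel (zpowers x) (G ⧸ S)) p).out = p := by
          have h2 : (Quotient.mk (orbitRel (zpowers x) (G ⧸ S)) p).out ∈ orbit (zpowers x) p :=
            (orbitRel_apply.1 (Quotient.mk_out (s := orbitRel (zpowers x) (G ⧸ S)) p))
          obtain ⟨⟨g, k, rfl⟩, hg⟩ := h2
          have h3 : x ∈ stabilizer G p := mem_stabilizer_iff.2 hp.1
          have h4 : x ^ k • p = p := mem_stabilizer_iff.1 ((stabilizer G p).zpow_mem h3 k)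
          rw [← hg]
          exact h4
        refine ⟨Quotient.mk (orbitRel (zpowers x) (G ⧸ S)) p, ?_, hout⟩
        simp only [Finset.mem_filter, Finset.mem_univ, true_and, hout]
        exact ⟨Function.minimalPeriod_eq_one_iff_isFixedPt.2 hp.1, hp.2⟩
    rw [← e]
    exact h1
  have hFmOdd : Odd Fm.card := by
    have h2 : Fn.card + Fm.card = Fp.card := by
      rw [add_comm]
      exact Finset.card_filter_add_card_filter_not _
    rw [← h2] at hFpodd
    rcases Nat.even_or_odd Fm.card with h | h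
    · exact absurd (hFnEven.add h) (Nat.not_even_iff_odd.2 hFpodd)
    · exact h
  -- the action of `D`
  have hcoset : ∀ (d : G) (q : G ⧸ S), (((d • q).out : G) : G ⧸ S) = ((d * q.out : G) : G ⧸ S) := by
    intro d q
    rw [QuotientGroup.out_eq']
    have : ((d * q.out : G) : G ⧸ S) = d • ((q.out : G) : G ⧸ S) := rfl
    rw [this, QuotientGroup.out_eq']
  let Y : SubMulAction D (G ⧸ S) :=
    { carrier := (Fm : Set (G ⧸ S))
      smul_mem' := by
        rintro ⟨d, hd⟩ q hq
        have hq' : x • q = q ∧ q.out⁻¹ * x * q.out ∈ M := by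
          simpa only [Fm, Fp, Finset.coe_filter, Finset.mem_filter, Finset.mem_univ, true_and,
            Set.mem_ofPred_eq] using hq
        have h3 : x • (d • q) = d • q := by
          rw [← mul_smul, ← hDx d hd, mul_smul, hq'.1]
        have h4 : (d • q).out⁻¹ * x * (d • q).out ∈ M := by
          rw [conj_mem_iff_of_coset hMS hM (hcoset d q)]
          have e : (d * q.out)⁻¹ * x * (d * q.out) = q.out⁻¹ * (d⁻¹ * (x * d)) * q.out := by group
          rw [e, ← hDx d hd]
          have e2 : q.out⁻¹ * (d⁻¹ * (d * x)) * q.out = q.out⁻¹ * x * q.out := by group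
          rw [e2]
          exact hq'.2
        show d • q ∈ (Fm : Set (G ⧸ S))
        simp only [Fm, Fp, Finset.coe_filter, Finset.mem_filter, Finset.mem_univ, true_and,
          Set.mem_ofPred_eq]
        exact ⟨h3, h4⟩ }
  have hmod := hD.card_modEq_card_fixedPoints Y
  have hY : Nat.card Y = Fm.card := by
    have : Nat.card Y = Nat.card (Fm : Set (G ⧸ S)) := rfl
    rw [this, Nat.card_coe_set_eq, Set.ncard_coe_finset]
  have hnonempty : (fixedPoints D Y).Nonempty := by
    by_contra hne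
    rw [Set.not_nonempty_iff_eq_empty] at hne
    rw [hne, hY] at hmod
    have h6 : Fm.card % 2 = 0 := by
      have h9 : Fm.card ≡ 0 [MOD 2] := by simpa using hmod
      exact h9
    exact (Nat.not_even_iff_odd.2 hFmOdd) (Nat.even_iff.2 h6)
  obtain ⟨⟨q₀, hq₀⟩, hfix⟩ := hnonempty
  have hq₀' : x • q₀ = q₀ ∧ q₀.out⁻¹ * x * q₀.out ∈ M := by
    have h10 : q₀ ∈ (Fm : Set (G ⧸ S)) := hq₀
    simpa only [Fm, Fp, Finset.coe_filter, Finset.mem_filter, Finset.mem_univ,
      true_and, Set.mem_ofPred_eq] using h10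
  refine ⟨q₀.out, hq₀'.2, ?_⟩
  intro d hd
  have h7 := congrArg Subtype.val (hfix ⟨d, hd⟩)
  have h8 : d • q₀ = q₀ := h7
  rw [← hfixed_iff]
  rw [QuotientGroup.out_eq']
  exact h8

end Cfsg.Agent.Lib.ThompsonFix
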