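import Mathlib
import Cfsg.Prelude.Def_Transfer
import Cfsg.Prelude.Def_Solvable
import Cfsg.Agent.Lib.LargeExtra
import Cfsg.Agent.Lib.ThompsonFix

/-!
# Extraspecial `O₂(C(z))`: fusion lemmas
-/

set_option autoImplicit false
set_option linter.style.haveILetI false
set_option linter.unusedVariables false
set_option linter.unusedSectionVars false

open Cfsg

namespace Cfsg.Agent.Lib.LargeIdx

open Cfsg.Agent.Lib.LargeExtra

variable {G : Type*} [Group G]

theorem no_index_two [Finite G] (hres : pResidual 2 G = ⊤) (H : Subgroup G) : H.index ≠ 2 := by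
  intro hi
  haveI : H.Normal := Subgroup.normal_of_index_eq_two hi
  have hle : pResidual 2 G ≤ H := by
    unfold pResidual
    rw [Subgroup.closure_le]
    intro g hg
    have hg' : Nat.Coprime (orderOf g) 2 := hg
    have h1 : (g : G ⧸ H) ^ orderOf g = 1 := by
      rw [← QuotientGroup.mk_pow, pow_orderOf_eq_one]; rfl
    have h2 : (g : G ⧸ H) ^ 2 = 1 := by
      have h3 : Nat.card (G ⧸ H) = 2 := by rw [← Subgroup.index_eq_card]; exact hi
      rw [← h3]; exact pow_card_eq_one'
    have h4 : orderOf (g : G ⧸ H) = 1 := Nat.eq_one_of_dvd_coprimes hg'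
      (orderOf_dvd_of_pow_eq_one h1) (orderOf_dvd_of_pow_eq_one h2)
    have h5 : (g : G ⧸ H) = 1 := orderOf_eq_one_iff.1 h4
    exact (QuotientGroup.eq_one_iff g).1 h5
  rw [hres] at hle
  have : H = ⊤ := top_le_iff.1 hle
  rw [this, Subgroup.index_top] at hi
  omega

theorem setting_of_hyp [Finite G] (z : G) (hz : orderOf z = 2) (E : Subgroup G)
    (hE : E = (Cfsg.pCore 2 ↥(Subgroup.centralizer ({z} : Set G))).map (Subgroup.centralizer ({z} : Set G)).subtype)
    (hext : IsExtraspecial 2 ↥E) (hcent : Subgroup.centralizer (E : Set G) ≤ E) : Setting E z := by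
  haveI : Fact (Nat.Prime 2) := ⟨Nat.prime_two⟩
  obtain ⟨z₀, hz₀, -⟩ := exists_extraAt hext
  set H := Subgroup.centralizer ({z} : Set G) with hH
  have hzH : z ∈ H := by
    rw [hH, Subgroup.mem_centralizer_iff]
    intro y hy
    rw [Set.mem_singleton_iff.1 hy]
  have hmemH : ∀ x : G, x * z = z * x → x ∈ H := by
    intro x hx
    rw [hH, Subgroup.mem_centralizer_iff]
    intro y hy
    rw [Set.mem_singleton_iff.1 hy]
    exact hx.symm
  have hEH : E ≤ H := by
    rw [hE]; exact Subgroup.map_subtype_le _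
  have hHz : ∀ x ∈ H, x * z = z * x := by
    intro x hx
    exact (Subgroup.mem_centralizer_iff.1 hx z (Set.mem_singleton z)).symm
  -- `z ∈ E`
  have hzE : z ∈ E := by
    have hnormal : (Subgroup.zpowers (⟨z, hzH⟩ : H)).Normal := by
      constructor
      rintro _ ⟨k, rfl⟩ g
      refine ⟨k, ?_⟩
      have h1 : g * (⟨z, hzH⟩ : H) * g⁻¹ = ⟨z, hzH⟩ := by
        apply Subtype.ext
        have := hHz g.1 g.2
        simp only [Subgroup.coe_mul, InvMemClass.coe_inv]
        rw [this]; group
      show (⟨z, hzH⟩ : H) ^ k = g * (⟨z, hzH⟩ : H) ^ k * g⁻¹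
      rw [← conj_zpow, h1]
    have h2 : IsPGroup 2 (Subgroup.zpowers (⟨z, hzH⟩ : H)) := by
      apply IsPGroup.of_card (n := 1)
      rw [Nat.card_zpowers, pow_one]
      have : orderOf (⟨z, hzH⟩ : H) = orderOf z := Subgroup.orderOf_mk z hzH
      rw [this, hz]
    have h3 : Subgroup.zpowers (⟨z, hzH⟩ : H) ≤ Cfsg.pCore 2 H := by
      unfold Cfsg.pCore
      exact le_sSup ⟨hnormal, h2⟩
    rw [hE]
    exact ⟨⟨z, hzH⟩, h3 (Subgroup.mem_zpowers _), rfl⟩
  have hzz₀ : z = z₀ := by
    rcases hz₀.central z hzE (fun y hy => (hHz y (hEH hy)).symm) with h | h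
    · exfalso
      rw [h, orderOf_one] at hz
      omega
    · exact h
  subst hzz₀
  refine ⟨hz₀, ?_, ?_⟩
  · intro x hx
    have hxE : x ∈ E := hcent (Subgroup.mem_centralizer_iff.2 (fun y hy => hx y hy))
    exact hz₀.central x hxE (fun y hy => (hx y hy).symm)
  · intro x hx y hy
    rw [hE] at hy ⊢
    obtain ⟨⟨y', hy'H⟩, hy', rfl⟩ := hy
    have hxH := hmemH x hx
    have hnorm : (Cfsg.pCore 2 H).Normal := by
      unfold Cfsg.pCore
      apply Subgroup.sSup_normal
      rintro N ⟨hN, -⟩
      exact hN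
    refine ⟨(⟨x, hxH⟩ : H) * ⟨y', hy'H⟩ * (⟨x, hxH⟩ : H)⁻¹, hnorm.conj_mem _ hy' _, rfl⟩

section Fusion

variable [Finite G] {E : Subgroup G} {z : G}

/-- A Sylow `2`-subgroup through `E` centralizes `z`. -/
theorem exists_sylow (hS : Setting E z) : ∃ T : Sylow 2 G, E ≤ (T : Subgroup G) ∧
    ∀ t ∈ (T : Subgroup G), t * z = z * t := by
  haveI : Fact (Nat.Prime 2) := ⟨Nat.prime_two⟩
  obtain ⟨T, hT⟩ := hS.extra.two.exists_le_sylow
  refine ⟨T, hT, ?_⟩
  have hzT : z ∈ (T : Subgroup G) := hT hS.extra.mem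
  haveI : Nontrivial (T : Subgroup G) := ⟨⟨⟨z, hzT⟩, 1, fun h => hS.extra.ne_one (congrArg Subtype.val h)⟩⟩
  haveI := T.isPGroup'.center_nontrivial
  obtain ⟨⟨c, hc⟩, hc1⟩ := exists_ne (1 : Subgroup.center (T : Subgroup G))
  have hcne : (c : G) ≠ 1 := fun h => hc1 (Subtype.ext (Subtype.ext h))
  have hcom : ∀ t ∈ (T : Subgroup G), t * (c : G) = (c : G) * t := by
    intro t ht
    have := Subgroup.mem_center_iff.1 hc ⟨t, ht⟩
    exact congrArg Subtype.val this
  have hcz : (c : G) = z := by
    rcases hS.cQ c (fun y hy => hcom y (hT hy)) with h | h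
    · exact absurd h hcne
    · exact h
  intro t ht
  rw [← hcz]
  exact hcom t ht

/-- An element centralizing `C_Q(y)` and `z` (`y` a non-central involution of `Q`) lies in `⟨y, z⟩`. -/
theorem mem_of_centralizes (hS : Setting E z) {y a : G} (hy : y ∈ E) (hyy : y * y = 1) (hy1 : y ≠ 1)
    (hyz : y ≠ z) (haz : a * z = z * a) (ha : ∀ w ∈ E, w * y = y * w → a * w = w * a) :
    a = 1 ∨ a = z ∨ a = y ∨ a = y * z := by
  have X := hS.extra
  obtain ⟨t, ht, hts⟩ := X.exists_not_comm hy hy1 hyz
  have hazc : a * z * a⁻¹ = z := conj_eq_of_comm haz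
  have hta : a * t * a⁻¹ ∈ E := hS.nQ a haz t ht
  set c := t⁻¹ * (a * t * a⁻¹) with hc
  have hcE : c ∈ E := E.mul_mem (E.inv_mem ht) hta
  have htc : a * t * a⁻¹ = t * c := by rw [hc]; group
  -- `c` commutes with `C_E(y)`
  have hcw : ∀ w ∈ E, w * y = y * w → c * w = w * c := by
    intro w hw hwy
    have h1 : a * w * a⁻¹ = w := conj_eq_of_comm (ha w hw hwy)
    have hcommfix : a * (t * w * t⁻¹ * w⁻¹) * a⁻¹ = t * w * t⁻¹ * w⁻¹ := by
      rcases X.comm t ht w hw with h | h
      · rw [h]; group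
      · rw [h]; exact hazc
    have h2 : a * (t * w * t⁻¹ * w⁻¹) * a⁻¹ = (t * c) * w * (t * c)⁻¹ * w⁻¹ := by
      have e : a * (t * w * t⁻¹ * w⁻¹) * a⁻¹
          = (a * t * a⁻¹) * (a * w * a⁻¹) * (a * t * a⁻¹)⁻¹ * (a * w * a⁻¹)⁻¹ := by group
      rw [e, h1, htc]
    rw [hcommfix] at h2
    -- so `c w c⁻¹ = w`
    have h3 : c * w * c⁻¹ = w := by
      have h4 : t * (c * w * c⁻¹) * t⁻¹ = t * w * t⁻¹ := by
        have : t * w * t⁻¹ * w⁻¹ = t * (c * w * c⁻¹) * t⁻¹ * w⁻¹ := by
          rw [h2]; group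
        exact (mul_right_cancel this).symm
      have := mul_right_cancel h4
      exact mul_left_cancel this
    exact comm_of_conj_eq h3
  have hcases := X.mem_of_comm_centralizer hy hyy ht hts hcE hcw
  have hzz := X.sq_eq
  have hyzc : y * z = z * y := X.cen y hy
  -- squares
  have hsq : (a * t * a⁻¹) * (a * t * a⁻¹) = t * t := by
    have e : (a * t * a⁻¹) * (a * t * a⁻¹) = a * (t * t) * a⁻¹ := by group
    rw [e]
    have h2 := X.sq t ht
    rw [pow_two] at h2
    rcases h2 with h | h
    · rw [h]; group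
    · rw [h]; exact hazc
  have hty : t * y = y * z * t := by
    calc t * y = (t * y * t⁻¹) * t := by group
      _ = y * z * t := by rw [hts]
  have htz : t * z = z * t := X.cen t ht
  have hττ : y * (t * t) = (t * t) * y := by
    have h2 := X.sq t ht
    rw [pow_two] at h2
    rcases h2 with h | h
    · rw [h]; group
    · rw [h]; exact hyzc
  have hsqy : (t * y) * (t * y) = t * t * z := by
    calc (t * y) * (t * y) = (y * z * t) * (t * y) := by rw [← hty]
      _ = y * z * (t * t) * y := by group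
      _ = z * y * (t * t) * y := by rw [hyzc]
      _ = z * (y * (t * t)) * y := by group
      _ = z * ((t * t) * y) * y := by rw [hττ]
      _ = z * (t * t) * (y * y) := by group
      _ = z * (t * t) := by rw [hyy, mul_one]
      _ = t * t * z := by
          have hc1 : Commute z t := Commute.symm htz
          exact (hc1.mul_right hc1).eq
  have hzne : z ≠ 1 := X.ne_one
  have hnoty : (t * y) * (t * y) ≠ t * t := by
    rw [hsqy]
    intro h
    exact hzne (mul_left_cancel (h.trans (mul_one _).symm))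
  have hyzt : (t * (y * z)) * (t * (y * z)) = (t * y) * (t * y) := by
    have e1 : t * (y * z) = (t * y) * z := by group
    have hzty : z * (t * y) = (t * y) * z := by
      have hc1 : Commute z t := Commute.symm htz
      have hc2 : Commute z y := Commute.symm hyzc
      exact (hc1.mul_right hc2).eq
    rw [e1]
    calc (t * y) * z * ((t * y) * z) = (t * y) * (z * (t * y)) * z := by group
      _ = (t * y) * ((t * y) * z) * z := by rw [hzty]
      _ = (t * y) * (t * y) * (z * z) := by group
      _ = (t * y) * (t * y) := by rw [hzz, mul_one]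
  -- sub-lemma
  have hsub : ∀ b : G, (∀ w ∈ E, w * y = y * w → b * w = w * b) → b * t = t * b → b = 1 ∨ b = z := by
    intro b hb hbt
    apply hS.cQ
    intro p hp
    symm
    rcases X.comm p hp y hy with h1 | h1
    · exact hb p hp (comm_of_conj_eq (mul_inv_eq_one.1 h1))
    · have h2 : p * y * p⁻¹ = y * z := by
        calc p * y * p⁻¹ = (p * y * p⁻¹ * y⁻¹) * y := by group
          _ = z * y := by rw [h1]
          _ = y * z := hyzc.symm
      have h3 : (t⁻¹ * p) * y = y * (t⁻¹ * p) := by
        apply comm_of_conj_eq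
        calc (t⁻¹ * p) * y * (t⁻¹ * p)⁻¹ = t⁻¹ * (p * y * p⁻¹) * t := by group
          _ = t⁻¹ * (t * y * t⁻¹) * t := by rw [h2, hts]
          _ = y := by group
      have h4 := hb _ (E.mul_mem (E.inv_mem ht) hp) h3
      calc b * p = b * (t * (t⁻¹ * p)) := by group
        _ = (b * t) * (t⁻¹ * p) := by group
        _ = (t * b) * (t⁻¹ * p) := by rw [hbt]
        _ = t * (b * (t⁻¹ * p)) := by group
        _ = t * ((t⁻¹ * p) * b) := by rw [h4]
        _ = p * b := by group
  rcases hcases with h | h | h | h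
  · -- `c = 1`
    have hat : a * t = t * a := by
      apply comm_of_conj_eq
      rw [htc, h, mul_one]
    rcases hsub a ha hat with h5 | h5
    · exact Or.inl h5
    · exact Or.inr (Or.inl h5)
  · -- `c = z`
    have hyi : y⁻¹ = y := inv_eq_of_mul_eq_one_left hyy
    have hyt : y * t * y⁻¹ = z * t := by
      rw [hyi]
      calc y * t * y = y * (t * y) := by group
        _ = y * (y * z * t) := by rw [hty]
        _ = (y * y) * z * t := by group
        _ = z * t := by rw [hyy, one_mul]
    have hat : (a * y) * t = t * (a * y) := by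
      apply comm_of_conj_eq
      calc (a * y) * t * (a * y)⁻¹ = a * (y * t * y⁻¹) * a⁻¹ := by group
        _ = (a * z * a⁻¹) * (a * t * a⁻¹) := by rw [hyt]; group
        _ = z * (t * z) := by rw [hazc, htc, h]
        _ = z * (z * t) := by rw [htz]
        _ = t := by rw [← mul_assoc, hzz, one_mul]
    have hw : ∀ w ∈ E, w * y = y * w → (a * y) * w = w * (a * y) := by
      intro w hw hwy
      calc (a * y) * w = a * (y * w) := by group
        _ = a * (w * y) := by rw [hwy]
        _ = (a * w) * y := by group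
        _ = (w * a) * y := by rw [ha w hw hwy]
        _ = w * (a * y) := by group
    rcases hsub _ hw hat with h5 | h5
    · right; right; left
      calc a = (a * y) * y⁻¹ := by group
        _ = y := by rw [h5, one_mul, hyi]
    · right; right; right
      calc a = (a * y) * y⁻¹ := by group
        _ = z * y := by rw [h5, hyi]
        _ = y * z := hyzc.symm
  · exfalso
    apply hnoty
    rw [htc, h] at hsq
    exact hsq
  · exfalso
    apply hnoty
    rw [htc, h, hyzt] at hsq
    exact hsq

/-- A conjugate of `z` in `E` other than `z` is a commutator of elements of `C(z)`. -/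
theorem exists_commutator_of_conj_mem (hS : Setting E z) (hcard : 32 ≤ Nat.card E) {g : G}
    (hg : g * z * g⁻¹ ∈ E) (hne : g * z * g⁻¹ ≠ z) :
    ∃ a b : G, a * z = z * a ∧ b * z = z * b ∧ a * b * a⁻¹ * b⁻¹ = g * z * g⁻¹ := by
  have hmem := hS.mem_conj hcard hg hne
  have h1 : g⁻¹ * z * g ∈ E := mem_conj_iff.1 hmem
  have X := hS.extra
  have hzz := X.sq_eq
  have h2 : (g⁻¹ * z * g) * (g⁻¹ * z * g) = 1 := by
    calc (g⁻¹ * z * g) * (g⁻¹ * z * g) = g⁻¹ * (z * z) * g := by group
      _ = 1 := by rw [hzz]; group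
  have hne1 : g⁻¹ * z * g ≠ 1 := by
    intro h
    have : z = g * (g⁻¹ * z * g) * g⁻¹ := by group
    rw [h] at this
    exact X.ne_one (by simpa using this)
  have hne2 : g⁻¹ * z * g ≠ z := by
    intro h
    apply hne
    have : g * (g⁻¹ * z * g) * g⁻¹ = z := by group
    rw [h] at this
    exact this
  obtain ⟨t, ht, hts⟩ := X.exists_not_comm h1 hne1 hne2
  obtain ⟨r₁, hr₁, r₂, hr₂, h1s, h2s, hcomm⟩ := PairData.exists_comm X h1 h2 ht hts hcard
  have hcon : ∀ r : G, r * (g⁻¹ * z * g) = (g⁻¹ * z * g) * r → (g * r * g⁻¹) * z = z * (g * r * g⁻¹) := by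
    intro r hr
    have h3 : g⁻¹ * (g * r * g⁻¹ * z) * g = g⁻¹ * (z * (g * r * g⁻¹)) * g := by
      calc g⁻¹ * (g * r * g⁻¹ * z) * g = r * (g⁻¹ * z * g) := by group
        _ = (g⁻¹ * z * g) * r := hr
        _ = g⁻¹ * (z * (g * r * g⁻¹)) * g := by group
    exact mul_left_cancel (mul_right_cancel h3)
  refine ⟨g * r₁ * g⁻¹, g * r₂ * g⁻¹, hcon _ h1s, hcon _ h2s, ?_⟩
  calc g * r₁ * g⁻¹ * (g * r₂ * g⁻¹) * (g * r₁ * g⁻¹)⁻¹ * (g * r₂ * g⁻¹)⁻¹
      = g * (r₁ * r₂ * r₁⁻¹ * r₂⁻¹) * g⁻¹ := by group
    _ = g * z * g⁻¹ := by rw [hcomm]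

/-- An index two subgroup of `E`: some involution of `E` lies outside, when `|E| ≥ 32`. -/
theorem exists_involution_not_mem (X : ExtraAt E z) (hcard : 32 ≤ Nat.card E) (K₀ : Subgroup G)
    (hz : z ∈ K₀) {e₀ : G} (he₀E : e₀ ∈ E) (he₀ : e₀ ∉ K₀)
    (hidx : ∀ a ∈ E, ∀ b ∈ E, a ∉ K₀ → b ∉ K₀ → a * b ∈ K₀) :
    ∃ s ∈ E, s * s = 1 ∧ s ∉ K₀ := by
  by_contra hcon
  push Not at hcon
  have hall : ∀ e ∈ E, e ∉ K₀ → e * e = z := by
    intro e he heK
    have h1 := X.sq e he
    rw [pow_two] at h1
    rcases h1 with h | h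
    · exact absurd (hcon e he h) heK
    · exact h
  have hzz := X.sq_eq
  have hcenz : ∀ x ∈ E, x * z = z * x := X.cen
  -- `κ(a, e) = a²`
  have hk : ∀ a ∈ E, a ∈ K₀ → ∀ e ∈ E, e ∉ K₀ → a * e * a⁻¹ * e⁻¹ = a * a := by
    intro a ha haK e he heK
    have hea : e * a ∉ K₀ := fun h => heK (by
      have : e = (e * a) * a⁻¹ := by group
      rw [this]; exact K₀.mul_mem h (K₀.inv_mem haK))
    have h1 := hall _ (E.mul_mem he ha) hea
    have h2 := hall e he heK
    have h3 := X.comm a ha e he
    rcases h3 with h3 | h3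
    · -- commute
      have h4 : a * e = e * a := comm_of_conj_eq (mul_inv_eq_one.1 h3)
      have h5 : (e * a) * (e * a) = (e * e) * (a * a) := by
        calc (e * a) * (e * a) = e * (a * e) * a := by group
          _ = e * (e * a) * a := by rw [h4]
          _ = (e * e) * (a * a) := by group
      rw [h1, h2] at h5
      have h6 : a * a = 1 := by
        have h7 : z * 1 = z * (a * a) := by rw [mul_one]; exact h5
        exact (mul_left_cancel h7).symm
      rw [h3, h6]
    · have h4 : a * e = z * (e * a) := by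
        calc a * e = (a * e * a⁻¹ * e⁻¹) * (e * a) := by group
          _ = z * (e * a) := by rw [h3]
      have h5 : (e * a) * (e * a) = z * ((e * e) * (a * a)) := by
        calc (e * a) * (e * a) = e * (a * e) * a := by group
          _ = e * (z * (e * a)) * a := by rw [h4]
          _ = (e * z) * (e * a) * a := by group
          _ = (z * e) * (e * a) * a := by rw [hcenz e he]
          _ = z * ((e * e) * (a * a)) := by group
      rw [h1, h2] at h5
      -- `z = z * (z * a²)` hence `a² = z`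
      have h8 : z * 1 = z * (z * (a * a)) := by rw [mul_one]; exact h5
      have h9 : 1 = z * (a * a) := mul_left_cancel h8
      have h6 : a * a = z := by
        calc a * a = (z * z) * (a * a) := by rw [hzz, one_mul]
          _ = z * (z * (a * a)) := by group
          _ = z * 1 := by rw [← h9]
          _ = z := mul_one z
      rw [h3, h6]
  have hab : ∀ a ∈ E, a ∈ K₀ → ∀ b ∈ E, b ∈ K₀ → a * b = b * a := by
    intro a ha haK b hb hbK
    have heb : e₀ * b ∉ K₀ := fun h => he₀ (by
      have : e₀ = (e₀ * b) * b⁻¹ := by group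
      rw [this]; exact K₀.mul_mem h (K₀.inv_mem hbK))
    have h1 := hk a ha haK e₀ he₀E he₀
    have h2 := hk a ha haK _ (E.mul_mem he₀E hb) heb
    have h3 := X.comm_mul_right ha he₀E hb
    rw [h1, h2] at h3
    have h4 : a * b * a⁻¹ * b⁻¹ = 1 := by
      have h5 : a * a * 1 = a * a * (a * b * a⁻¹ * b⁻¹) := by rw [mul_one]; exact h3
      exact (mul_left_cancel h5).symm
    exact comm_of_conj_eq (mul_inv_eq_one.1 h4)
  -- elements outside `K₀` do not commute with non-central elements of `E ∩ K₀`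
  have hnc : ∀ a ∈ E, a ∈ K₀ → a ≠ 1 → a ≠ z → ∀ e ∈ E, e ∉ K₀ → a * e * a⁻¹ * e⁻¹ = z := by
    intro a ha haK ha1 haz e he heK
    rcases X.comm a ha e he with h | h
    · exfalso
      have h1 : a * e = e * a := comm_of_conj_eq (mul_inv_eq_one.1 h)
      have hcent : ∀ y ∈ E, a * y = y * a := by
        intro y hy
        by_cases hyK : y ∈ K₀
        · exact hab a ha haK y hy hyK
        · have h2 : e⁻¹ * y ∈ K₀ := hidx _ (E.inv_mem he) _ hy (fun h => heK (K₀.inv_mem_iff.1 h)) hyK
          have h3 := hab a ha haK _ (E.mul_mem (E.inv_mem he) hy) h2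
          calc a * y = a * (e * (e⁻¹ * y)) := by group
            _ = (a * e) * (e⁻¹ * y) := by group
            _ = (e * a) * (e⁻¹ * y) := by rw [h1]
            _ = e * (a * (e⁻¹ * y)) := by group
            _ = e * ((e⁻¹ * y) * a) := by rw [h3]
            _ = y * a := by group
      rcases X.central a ha hcent with h2 | h2
      · exact ha1 h2
      · exact haz h2
    · exact h
  -- products
  have hprod : ∀ a ∈ E, a ∈ K₀ → a ≠ 1 → a ≠ z → ∀ b ∈ E, b ∈ K₀ → b ≠ 1 → b ≠ z → b = a⁻¹ ∨ b = a⁻¹ * z := by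
    intro a ha haK ha1 haz b hb hbK hb1 hbz
    have hcent : ∀ y ∈ E, (a * b) * y = y * (a * b) := by
      intro y hy
      by_cases hyK : y ∈ K₀
      · calc (a * b) * y = a * (b * y) := by group
          _ = a * (y * b) := by rw [hab b hb hbK y hy hyK]
          _ = (a * y) * b := by group
          _ = (y * a) * b := by rw [hab a ha haK y hy hyK]
          _ = y * (a * b) := by group
      · have h1 := hnc a ha haK ha1 haz y hy hyK
        have h2 := hnc b hb hbK hb1 hbz y hy hyK
        have h3 : a * y = z * (y * a) := by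
          calc a * y = (a * y * a⁻¹ * y⁻¹) * (y * a) := by group
            _ = z * (y * a) := by rw [h1]
        have h4 : b * y = z * (y * b) := by
          calc b * y = (b * y * b⁻¹ * y⁻¹) * (y * b) := by group
            _ = z * (y * b) := by rw [h2]
        calc (a * b) * y = a * (b * y) := by group
          _ = a * (z * (y * b)) := by rw [h4]
          _ = (a * z) * (y * b) := by group
          _ = (z * a) * (y * b) := by rw [hcenz a ha]
          _ = z * ((a * y) * b) := by group
          _ = z * ((z * (y * a)) * b) := by rw [h3]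
          _ = (z * z) * (y * (a * b)) := by group
          _ = y * (a * b) := by rw [hzz, one_mul]
    rcases X.central _ (E.mul_mem ha hb) hcent with h | h
    · left
      exact eq_inv_of_mul_eq_one_right h
    · right
      calc b = a⁻¹ * (a * b) := by group
        _ = a⁻¹ * z := by rw [h]
  -- counting
  have hcount : Nat.card E ≤ 8 := by
    by_cases hex : ∃ a ∈ E, a ∈ K₀ ∧ a ≠ 1 ∧ a ≠ z
    · obtain ⟨a, ha, haK, ha1, haz⟩ := hex
      have hin : ∀ x ∈ E, x ∈ K₀ → x = 1 ∨ x = z ∨ x = a⁻¹ ∨ x = a⁻¹ * z := by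
        intro x hx hxK
        by_cases hx1 : x = 1
        · exact Or.inl hx1
        by_cases hxz : x = z
        · exact Or.inr (Or.inl hxz)
        · exact Or.inr (Or.inr (hprod a ha haK ha1 haz x hx hxK hx1 hxz))
      refine (card_le_of_list [1, z, a⁻¹, a⁻¹ * z, e₀, e₀ * z, e₀ * a⁻¹, e₀ * (a⁻¹ * z)] ?_).trans (by simp)
      intro q hq
      by_cases hqK : q ∈ K₀
      · rcases hin q hq hqK with h | h | h | h <;> simp [h]
      · have h2 : e₀⁻¹ * q ∈ K₀ := hidx _ (E.inv_mem he₀E) _ hq (fun h => he₀ (K₀.inv_mem_iff.1 h)) hqK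
        have h3 : q = e₀ * (e₀⁻¹ * q) := by group
        rcases hin _ (E.mul_mem (E.inv_mem he₀E) hq) h2 with h | h | h | h <;> rw [h3, h] <;> simp
    · push Not at hex
      have hin : ∀ x ∈ E, x ∈ K₀ → x = 1 ∨ x = z := by
        intro x hx hxK
        by_cases hx1 : x = 1
        · exact Or.inl hx1
        · exact Or.inr (hex x hx hxK hx1)
      refine (card_le_of_list [1, z, e₀, e₀ * z] ?_).trans (by simp)
      intro q hq
      by_cases hqK : q ∈ K₀
      · rcases hin q hq hqK with h | h <;> simp [h]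
      · have h2 : e₀⁻¹ * q ∈ K₀ := hidx _ (E.inv_mem he₀E) _ hq (fun h => he₀ (K₀.inv_mem_iff.1 h)) hqK
        have h3 : q = e₀ * (e₀⁻¹ * q) := by group
        rcases hin _ (E.mul_mem (E.inv_mem he₀E) hq) h2 with h | h <;> rw [h3, h] <;> simp
  omega

end Fusion

end Cfsg.Agent.Lib.LargeIdx
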