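import Mathlib
import Cfsg.Agent.Lib.BlockTransfer
import Cfsg.Agent.Lib.LargeIdx
import Cfsg.Agent.Lib.ExtraDual

/-!
# Block transfer with an extraspecial normal `2`-subgroup of `C(z)`
-/

set_option autoImplicit false
set_option linter.unusedSectionVars false
set_option linter.unusedVariables false
set_option linter.style.haveILetI false
set_option linter.unusedSimpArgs false

namespace Cfsg.Agent.Lib.BlockExtra

open Cfsg.Agent.Lib.BlockTransfer Cfsg.Agent.Lib.LargeExtra

variable {G : Type*} [Group G] [Finite G] {A : Type*} [CommGroup A]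

section Stepping

variable {H : Subgroup G} {E : Subgroup G} {z : G} {T : Subgroup G} {q : G ⧸ H}

theorem card_inf_ext_le {S : Subgroup G} {e : G} {hn : ∀ p ∈ S, e⁻¹ * p * e ∈ S} {h2 : e * e ∈ S}
    (he : e ∈ E) : Nat.card ↥(E ⊓ ext S e hn h2) ≤ 2 * Nat.card ↥(E ⊓ S) := by
  classical
  let f : ↥(E ⊓ ext S e hn h2) → ↥(E ⊓ S) × Bool := fun x =>
    if h : (x : G) ∈ S then (⟨x, x.2.1, h⟩, true)
    else (⟨e⁻¹ * x, E.mul_mem (E.inv_mem he) x.2.1, (x.2.2).resolve_left h⟩, false)
  have hf : Function.Injective f := by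
    intro x y hxy
    simp only [f] at hxy
    apply Subtype.ext
    by_cases hx : (x : G) ∈ S <;> by_cases hy : (y : G) ∈ S
    · simp only [hx, hy, dif_pos, Prod.mk.injEq, and_true] at hxy
      exact congrArg (fun w : ↥(E ⊓ S) => (w : G)) hxy
    · simp [hx, hy] at hxy
    · simp [hx, hy] at hxy
    · simp only [hx, hy, dif_neg, not_false_eq_true, Prod.mk.injEq, and_true] at hxy
      exact mul_left_cancel (congrArg (fun w : ↥(E ⊓ S) => (w : G)) hxy)
  have h := Nat.card_le_card_of_injective f hf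
  rw [Nat.card_prod, Nat.card_eq_fintype_card (α := Bool), Fintype.card_bool, mul_comm] at h
  exact h

variable (hS : Setting E z) (hT2 : IsPGroup 2 T) (hET : E ≤ T) (hTz : ∀ t ∈ T, t * z = z * t)
  (μ : H →* A) (hA : ∀ a : A, a * a = 1)

include hS hTz hET in
theorem conj_mem_of_T {t x : G} (ht : t ∈ T) (hx : x ∈ E) : t * x * t⁻¹ ∈ E :=
  hS.nQ t (hTz t ht) x hx

include hS in
theorem sq_mem {S : Subgroup G} (hz : z ∈ S) {e : G} (he : e ∈ E) : e * e ∈ S := by
  have := hS.extra.sq e he
  rw [pow_two] at this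
  rcases this with h | h
  · rw [h]; exact S.one_mem
  · rw [h]; exact hz

include hS hET hA in
/-- A step from a block where `nu` is trivial on `z`: it becomes trivial on `E`. -/
theorem step_E {S : Subgroup G} (hB : Blk T S q) (hz : z ∈ S) (hν : nu μ (orb S q) z = 1) {e : G}
    (he : e ∈ E) (heS : e ∉ S) {hn : ∀ p ∈ S, e⁻¹ * p * e ∈ S} {h2 : e * e ∈ S} {x : G} (hx : x ∈ E)
    (hxS : x ∈ ext S e hn h2) : nu μ (orb (ext S e hn h2) q) x = 1 := by
  have X := hS.extra
  have heT := hET he
  have hE0 : ∀ y ∈ E, y ∈ S → nu μ (orb (ext S e hn h2) q) y = 1 := by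
    intro y hyE hyS
    rw [nu_ext_of_mem μ hB heT heS hyS]
    rcases X.comm e⁻¹ (E.inv_mem he) y hyE with h | h
    · have h1 : e⁻¹ * y * e = y := by
        have := mul_inv_eq_one.1 h
        simpa using this
      rw [h1]; exact hA _
    · have h1 : e⁻¹ * y * e = z * y := by
        have : e⁻¹ * y * e⁻¹⁻¹ * y⁻¹ * y = z * y := by rw [h]
        simpa using this
      rw [h1, nu_mul μ z (stab_orb hyS), hν, one_mul]
      exact hA _
  have hEe : nu μ (orb (ext S e hn h2) q) e = 1 := by
    rw [nu_ext_self μ hB heT heS]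
    have := X.sq e he
    rw [pow_two] at this
    rcases this with h | h
    · rw [h, nu_one]
    · rw [h, hν]
  rcases hxS with h | h
  · exact hE0 x hx h
  · have e1 : x = e * (e⁻¹ * x) := by group
    rw [e1, nu_mul μ e (stab_orb (le_ext h)), hEe, hE0 _ (E.mul_mem (E.inv_mem he) hx) h, one_mul]

include hS hET hA in
/-- After any step `nu` is trivial on `z`. -/
theorem step_z {S : Subgroup G} (hB : Blk T S q) (hz : z ∈ S) {e : G}
    (he : e ∈ E) (heS : e ∉ S) {hn : ∀ p ∈ S, e⁻¹ * p * e ∈ S} {h2 : e * e ∈ S} :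
    nu μ (orb (ext S e hn h2) q) z = 1 := by
  rw [nu_ext_of_mem μ hB (hET he) heS hz]
  have h1 : e⁻¹ * z * e = z := by
    have := hS.extra.cen e he
    calc e⁻¹ * z * e = e⁻¹ * (z * e) := by group
      _ = e⁻¹ * (e * z) := by rw [this]
      _ = z := by group
  rw [h1]
  exact hA _

include hS hET hTz hA in
/-- A step from a block where `nu` is trivial on `E`: it becomes trivial everywhere. -/
theorem step_all {S : Subgroup G} (hB : Blk T S q) (hν : ∀ y ∈ E, y ∈ S → nu μ (orb S q) y = 1)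
    {e : G} (he : e ∈ E) (heS : e ∉ S) {hn : ∀ p ∈ S, e⁻¹ * p * e ∈ S} {h2 : e * e ∈ S} {x : G}
    (hxS : x ∈ ext S e hn h2) : nu μ (orb (ext S e hn h2) q) x = 1 := by
  have heT := hET he
  apply nu_ext_all μ _ _ hxS
  · intro p hp
    rw [nu_ext_of_mem μ hB heT heS hp]
    have hc : p⁻¹ * (e⁻¹ * p * e) ∈ S := S.mul_mem (S.inv_mem hp) (hn p hp)
    have hcE : p⁻¹ * (e⁻¹ * p * e) ∈ E := by
      have h1 : p⁻¹ * (e⁻¹ * p * e) = (p⁻¹ * e⁻¹ * p⁻¹⁻¹) * e := by group
      rw [h1]
      exact E.mul_mem (hS.nQ p⁻¹ (hTz _ (T.inv_mem (hB.1 hp))) _ (E.inv_mem he)) he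
    have h1 : e⁻¹ * p * e = p * (p⁻¹ * (e⁻¹ * p * e)) := by group
    rw [h1, nu_mul μ p (stab_orb hc), hν _ hcE hc, mul_one]
    exact hA _
  · rw [nu_ext_self μ hB heT heS]
    exact hν _ (E.mul_mem he he) h2

include hS hET hT2 hTz in
theorem exists_step {S : Subgroup G} (hB : Blk T S q) (hnot : ¬ E ≤ S) :
    ∃ e ∈ E, e ∉ S ∧ ∀ p ∈ S, e⁻¹ * p * e ∈ S := by
  haveI : Fact (Nat.Prime 2) := ⟨Nat.prime_two⟩
  exact exists_norm_ext hT2 hB.1 hET (fun t ht x hx => hS.nQ t (hTz t ht) x hx) hnot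

include hS hET hT2 hTz hA in
/-- One step suffices when `nu` is trivial on `E ⊓ S`. -/
theorem one_step {S : Subgroup G} (hB : Blk T S q) (hz : z ∈ S) (hnot : ¬ E ≤ S)
    (hν : ∀ y ∈ E, y ∈ S → nu μ (orb S q) y = 1) :
    ∃ S' : Subgroup G, Blk T S' q ∧ ∀ s ∈ S', nu μ (orb S' q) s = 1 := by
  obtain ⟨e, he, heS, hn⟩ := exists_step hS hT2 hET hTz hB hnot
  have h2 := sq_mem hS hz he
  exact ⟨ext S e hn h2, blk_ext hB (hET he), fun s hs => step_all hS hET hTz μ hA hB hν he heS hs⟩

include hS hET hT2 hTz hA in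
/-- Two steps suffice when `nu` is trivial on `z` and `E` is large. -/
theorem two_step {S : Subgroup G} (hB : Blk T S q) (hz : z ∈ S) (hnot : ¬ E ≤ S)
    (hν : nu μ (orb S q) z = 1) (hc : 2 * Nat.card ↥(E ⊓ S) < Nat.card E) :
    ∃ S' : Subgroup G, Blk T S' q ∧ ∀ s ∈ S', nu μ (orb S' q) s = 1 := by
  obtain ⟨e, he, heS, hn⟩ := exists_step hS hT2 hET hTz hB hnot
  have h2 := sq_mem hS hz he
  have hB1 : Blk T (ext S e hn h2) q := blk_ext hB (hET he)
  have hz1 : z ∈ ext S e hn h2 := le_ext hz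
  have hnot1 : ¬ E ≤ ext S e hn h2 := by
    intro hle
    have h3 := card_inf_ext_le (E := E) (hn := hn) (h2 := h2) he
    rw [inf_eq_left.2 hle] at h3
    omega
  refine one_step hS hT2 hET hTz μ hA hB1 hz1 hnot1 ?_
  intro y hy hyS
  exact step_E hS hET μ hA hB hz hν he heS hy hyS

include hS hET hT2 hTz hA in
/-- Three steps suffice when `E` is large. -/
theorem three_step {S : Subgroup G} (hB : Blk T S q) (hz : z ∈ S) (hnot : ¬ E ≤ S)
    (hc : 4 * Nat.card ↥(E ⊓ S) < Nat.card E) :
    ∃ S' : Subgroup G, Blk T S' q ∧ ∀ s ∈ S', nu μ (orb S' q) s = 1 := by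
  obtain ⟨e, he, heS, hn⟩ := exists_step hS hT2 hET hTz hB hnot
  have h2 := sq_mem hS hz he
  have hB1 : Blk T (ext S e hn h2) q := blk_ext hB (hET he)
  have hz1 : z ∈ ext S e hn h2 := le_ext hz
  have h3 := card_inf_ext_le (E := E) (hn := hn) (h2 := h2) he
  have hnot1 : ¬ E ≤ ext S e hn h2 := by
    intro hle
    rw [inf_eq_left.2 hle] at h3
    omega
  refine two_step hS hT2 hET hTz μ hA hB1 hz1 hnot1 ?_ ?_
  · exact step_z hS hET μ hA hB hz he heS
  · omega

include hS hET hTz hA in
/-- When `z` moves `q`: the block `{q, z q}`. -/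
theorem block_of_move {S : Subgroup G} (hB : Blk T S q) (hzS : z ∉ S) :
    ∃ S' : Subgroup G, Blk T S' q ∧ ∀ s ∈ S', nu μ (orb S' q) s = 1 := by
  have X := hS.extra
  have hzT : z ∈ T := hET X.mem
  have hzz := X.sq_eq
  have hconj : ∀ p ∈ S, z⁻¹ * p * z = p := by
    intro p hp
    have := hTz p (hB.1 hp)
    calc z⁻¹ * p * z = z⁻¹ * (p * z) := by group
      _ = z⁻¹ * (z * p) := by rw [this]
      _ = p := by group
  have hn : ∀ p ∈ S, z⁻¹ * p * z ∈ S := fun p hp => by rw [hconj p hp]; exact hp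
  have h2 : z * z ∈ S := by rw [hzz]; exact S.one_mem
  refine ⟨ext S z hn h2, blk_ext hB hzT, fun s hs => ?_⟩
  apply nu_ext_all μ _ _ hs
  · intro p hp
    rw [nu_ext_of_mem μ hB hzT hzS hp, hconj p hp]
    exact hA _
  · rw [nu_ext_self μ hB hzT hzS, hzz, nu_one]

end Stepping

section Base

variable {H : Subgroup G} {T : Subgroup G}

theorem blk_base (T : Subgroup G) (q : G ⧸ H) : Blk T (T ⊓ MulAction.stabilizer G q) q :=
  ⟨inf_le_left, fun t ht h => ⟨ht, h⟩⟩

theorem orb_base (T : Subgroup G) (q : G ⧸ H) : orb (T ⊓ MulAction.stabilizer G q) q = {q} := by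
  ext w
  rw [mem_orb, Finset.mem_singleton]
  constructor
  · rintro ⟨s, hs, rfl⟩
    exact hs.2
  · rintro rfl
    exact ⟨1, Subgroup.one_mem _, one_smul _ _⟩

theorem nu_base (μ : H →* A) (T : Subgroup G) (q : G ⧸ H) (x : G) :
    nu μ (orb (T ⊓ MulAction.stabilizer G q) q) x = eps μ x q := by
  rw [orb_base]
  unfold nu
  rw [Finset.prod_singleton]

theorem smul_eq_iff {q : G ⧸ H} {x : G} : x • q = q ↔ q.out⁻¹ * x * q.out ∈ H := by
  conv_lhs => rw [← QuotientGroup.out_eq' q]
  have : x • ((q.out : G) : G ⧸ H) = ((x * q.out : G) : G ⧸ H) := rfl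
  rw [this, QuotientGroup.eq]
  constructor
  · intro h
    have := H.inv_mem h
    simpa [mul_assoc] using this
  · intro h
    have := H.inv_mem h
    simpa [mul_assoc] using this

theorem eps_of_fix (μ : H →* A) {q : G ⧸ H} {x : G} (hx : x • q = q) :
    eps μ x q = μ ⟨q.out⁻¹ * x * q.out, smul_eq_iff.1 hx⟩ := by
  unfold eps
  congr 1
  apply Subtype.ext
  simp [hx]

end Base

section Central

variable {E : Subgroup G} {z : G}

/-- An element acting trivially on `E / ⟨z⟩`, commuting with `z`, lies in `E`. -/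
theorem mem_of_central (hS : Setting E z) {t : G} (htz : t * z = z * t)
    (h : ∀ w ∈ E, t * w * t⁻¹ = w ∨ t * w * t⁻¹ = w * z) : t ∈ E := by
  classical
  have X := hS.extra
  have hzz := X.sq_eq
  have hcenz : ∀ x ∈ E, x * z = z * x := X.cen
  let D : Subgroup G := E ⊓ Subgroup.centralizer ({t} : Set G)
  have hmemD : ∀ w, w ∈ D ↔ w ∈ E ∧ t * w * t⁻¹ = w := by
    intro w
    show w ∈ E ∧ w ∈ Subgroup.centralizer ({t} : Set G) ↔ _
    rw [Subgroup.mem_centralizer_iff]
    constructor
    · rintro ⟨h1, h2⟩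
      refine ⟨h1, ?_⟩
      have := h2 t rfl
      rw [this]; group
    · rintro ⟨h1, h2⟩
      refine ⟨h1, ?_⟩
      intro y hy
      rw [Set.mem_singleton_iff.1 hy]
      exact comm_of_conj_eq h2
  have hzD : z ∈ D := (hmemD z).2 ⟨X.mem, conj_eq_of_comm htz⟩
  by_cases hDE : ∀ w ∈ E, w ∈ D
  · -- `t` centralizes `E`
    have := hS.cQ t (fun y hy => (comm_of_conj_eq ((hmemD y).1 (hDE y hy)).2).symm)
    rcases this with rfl | rfl
    · exact E.one_mem
    · exact X.mem
  push Not at hDE
  obtain ⟨e, he, heD⟩ := hDE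
  have hte : t * e * t⁻¹ = e * z := by
    rcases h e he with h1 | h1
    · exact absurd ((hmemD e).2 ⟨he, h1⟩) heD
    · exact h1
  -- two cosets
  have hcos : ∀ w ∈ E, w ∉ D → e⁻¹ * w ∈ D := by
    intro w hw hwD
    have htw : t * w * t⁻¹ = w * z := by
      rcases h w hw with h1 | h1
      · exact absurd ((hmemD w).2 ⟨hw, h1⟩) hwD
      · exact h1
    refine (hmemD _).2 ⟨E.mul_mem (E.inv_mem he) hw, ?_⟩
    have h1 : t * (e⁻¹ * w) * t⁻¹ = (t * e * t⁻¹)⁻¹ * (t * w * t⁻¹) := by group
    rw [h1, hte, htw]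
    have : z * w = w * z := (hcenz w hw).symm
    calc (e * z)⁻¹ * (w * z) = z⁻¹ * e⁻¹ * (w * z) := by group
      _ = z⁻¹ * (e⁻¹ * w) * z := by group
      _ = e⁻¹ * w := by
        have h2 : z * (e⁻¹ * w) = (e⁻¹ * w) * z := (hcenz _ (E.mul_mem (E.inv_mem he) hw)).symm
        calc z⁻¹ * (e⁻¹ * w) * z = z⁻¹ * ((e⁻¹ * w) * z) := by group
          _ = z⁻¹ * (z * (e⁻¹ * w)) := by rw [h2]
          _ = e⁻¹ * w := by group
  -- card of `E`
  have hDleE : D ≤ E := inf_le_left
  have hidx : Nat.card E = 2 * Nat.card D := by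
    have h1 : (D.subgroupOf E).index = 2 := by
      rw [Subgroup.index_eq_two_iff]
      refine ⟨⟨e, he⟩, ?_⟩
      intro b
      by_cases hb : (b : G) ∈ D
      · right
        refine ⟨Subgroup.mem_subgroupOf.2 hb, ?_⟩
        intro h2
        apply heD
        have h2' : (b : G) * e ∈ D := Subgroup.mem_subgroupOf.1 h2
        have h3 := D.mul_mem (D.inv_mem hb) h2'
        simpa using h3
      · left
        refine ⟨Subgroup.mem_subgroupOf.2 ?_, fun h => hb (Subgroup.mem_subgroupOf.1 h)⟩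
        have h2 := hcos b b.2 hb
        show (b : G) * e ∈ D
        have h3 : (b : G) * e = e * (e⁻¹ * b) * e := by group
        rw [h3]
        have h4 : e * (e⁻¹ * (b : G)) * e = (e * (e⁻¹ * b) * e⁻¹) * (e * e) := by group
        rw [h4]
        refine D.mul_mem ?_ ?_
        · have h5 := (hmemD _).1 h2
          refine (hmemD _).2 ⟨E.mul_mem (E.mul_mem he h5.1) (E.inv_mem he), ?_⟩
          rcases X.comm e he (e⁻¹ * b) h5.1 with h6 | h6
          · have h7 : e * (e⁻¹ * (b : G)) * e⁻¹ = e⁻¹ * b := mul_inv_eq_one.1 h6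
            rw [h7]; exact h5.2
          · have h7 : e * (e⁻¹ * (b : G)) * e⁻¹ = z * (e⁻¹ * b) := by
              calc e * (e⁻¹ * (b : G)) * e⁻¹ = (e * (e⁻¹ * (b : G)) * e⁻¹ * (e⁻¹ * b)⁻¹) * (e⁻¹ * b) := by group
                _ = z * (e⁻¹ * b) := by rw [h6]
            rw [h7]
            have h8 : t * (z * (e⁻¹ * (b : G))) * t⁻¹ = (t * z * t⁻¹) * (t * (e⁻¹ * b) * t⁻¹) := by group
            rw [h8, conj_eq_of_comm htz, h5.2]
        · have h5 := X.sq e he
          rw [pow_two] at h5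
          rcases h5 with h5 | h5
          · rw [h5]; exact D.one_mem
          · rw [h5]; exact hzD
    have h2 : Nat.card (D.subgroupOf E) * (D.subgroupOf E).index = Nat.card E :=
      Subgroup.card_mul_index _
    have h3 : Nat.card (D.subgroupOf E) = Nat.card D :=
      Nat.card_congr (Subgroup.subgroupOfEquivOfLe hDleE).toEquiv
    rw [h1, h3] at h2
    omega
  -- the centralizer of `D` has order four
  let F : Subgroup G := E ⊓ Subgroup.centralizer (D : Set G)
  have hF : Nat.card D * Nat.card F = 2 * Nat.card E :=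
    Cfsg.Agent.Lib.ExtraDual.card_mul_centralizer X hDleE hzD
  have hF4 : Nat.card F = 4 := by
    have hpos : 0 < Nat.card D := Nat.card_pos
    rw [hidx] at hF
    have : Nat.card D * Nat.card F = Nat.card D * 4 := by rw [hF]; ring
    exact Nat.eq_of_mul_eq_mul_left hpos this
  have hzF : z ∈ F := ⟨X.mem, Subgroup.mem_centralizer_iff.2 fun y hy => hcenz y (hDleE hy)⟩
  obtain ⟨x, hxF, hx1, hxz⟩ : ∃ x ∈ F, x ≠ 1 ∧ x ≠ z := by
    by_contra hcon
    push Not at hcon
    have h1 : Nat.card F ≤ [1, z].length := by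
      apply card_le_of_list
      intro f hf
      by_cases hf1 : f = 1
      · simp [hf1]
      · have := hcon f hf hf1
        simp [this]
    simp at h1
    omega
  have hxE : x ∈ E := hxF.1
  have hxD : ∀ w ∈ D, x * w = w * x := fun w hw =>
    (Subgroup.mem_centralizer_iff.1 hxF.2 w hw).symm
  -- `x` does not commute with `e`
  have hxe : x * e * x⁻¹ = e * z := by
    rcases X.comm x hxE e he with h1 | h1
    · exfalso
      have h2 : x * e * x⁻¹ = e := mul_inv_eq_one.1 h1
      have h3 : ∀ y ∈ E, x * y = y * x := by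
        intro y hy
        by_cases hyD : y ∈ D
        · exact hxD y hyD
        · have h4 := hcos y hy hyD
          have h5 := hxD _ h4
          have e2 : y = e * (e⁻¹ * y) := by group
          have h6 : x * e = e * x := comm_of_conj_eq h2
          rw [e2]
          calc x * (e * (e⁻¹ * y)) = (x * e) * (e⁻¹ * y) := by group
            _ = e * (x * (e⁻¹ * y)) := by rw [h6]; group
            _ = e * ((e⁻¹ * y) * x) := by rw [h5]
            _ = e * (e⁻¹ * y) * x := by group
      rcases X.central x hxE h3 with h4 | h4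
      · exact hx1 h4
      · exact hxz h4
    · calc x * e * x⁻¹ = (x * e * x⁻¹ * e⁻¹) * e := by group
        _ = z * e := by rw [h1]
        _ = e * z := (hcenz e he).symm
  -- `t x` centralizes `E`
  have hb : ∀ y ∈ E, y * (t * x) = (t * x) * y := by
    have hbD : ∀ w ∈ D, (t * x) * w = w * (t * x) := by
      intro w hw
      have h1 := hxD w hw
      have h2 : t * w = w * t := comm_of_conj_eq ((hmemD w).1 hw).2
      calc t * x * w = t * (x * w) := by group
        _ = t * (w * x) := by rw [h1]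
        _ = (t * w) * x := by group
        _ = (w * t) * x := by rw [h2]
        _ = w * (t * x) := by group
    have hbe : (t * x) * e = e * (t * x) := by
      apply comm_of_conj_eq
      calc (t * x) * e * (t * x)⁻¹ = t * (x * e * x⁻¹) * t⁻¹ := by group
        _ = t * (e * z) * t⁻¹ := by rw [hxe]
        _ = (t * e * t⁻¹) * (t * z * t⁻¹) := by group
        _ = (e * z) * z := by rw [hte, conj_eq_of_comm htz]
        _ = e * (z * z) := by group
        _ = e := by rw [hzz, mul_one]
    intro y hy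
    by_cases hyD : y ∈ D
    · exact (hbD y hyD).symm
    · have h4 := hcos y hy hyD
      have h5 := hbD _ h4
      have e2 : y = e * (e⁻¹ * y) := by group
      rw [e2]
      calc e * (e⁻¹ * y) * (t * x) = e * ((e⁻¹ * y) * (t * x)) := by group
        _ = e * ((t * x) * (e⁻¹ * y)) := by rw [h5]
        _ = (e * (t * x)) * (e⁻¹ * y) := by group
        _ = ((t * x) * e) * (e⁻¹ * y) := by rw [hbe]
        _ = (t * x) * (e * (e⁻¹ * y)) := by group
  have hfin : t = (t * x) * x⁻¹ := by group
  rw [hfin]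
  refine E.mul_mem ?_ (E.inv_mem hxE)
  rcases hS.cQ (t * x) hb with h | h
  · rw [h]; exact E.one_mem
  · rw [h]; exact X.mem

/-- An involution commuting with `z` and centralizing a subgroup of index at most two of `E` lies
in `E`. -/
theorem mem_of_index_two (hS : Setting E z) {a : G} (haz : a * z = z * a) (haa : a * a = 1)
    (hc : Nat.card E ≤ 2 * Nat.card ↥(E ⊓ Subgroup.centralizer ({a} : Set G))) : a ∈ E := by
  classical
  have X := hS.extra
  have hzz := X.sq_eq
  have hcenz : ∀ x ∈ E, x * z = z * x := X.cen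
  have hai : a⁻¹ = a := inv_eq_of_mul_eq_one_left haa
  have hazc : a * z * a⁻¹ = z := conj_eq_of_comm haz
  let D : Subgroup G := E ⊓ Subgroup.centralizer ({a} : Set G)
  have hmemD : ∀ w, w ∈ D ↔ w ∈ E ∧ a * w * a⁻¹ = w := by
    intro w
    show w ∈ E ∧ w ∈ Subgroup.centralizer ({a} : Set G) ↔ _
    rw [Subgroup.mem_centralizer_iff]
    constructor
    · rintro ⟨h1, h2⟩
      refine ⟨h1, ?_⟩
      have := h2 a rfl
      rw [this]; group
    · rintro ⟨h1, h2⟩
      refine ⟨h1, ?_⟩
      intro y hy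
      rw [Set.mem_singleton_iff.1 hy]
      exact comm_of_conj_eq h2
  by_cases hDE : ∀ w ∈ E, w ∈ D
  · have := hS.cQ a (fun y hy => (comm_of_conj_eq ((hmemD y).1 (hDE y hy)).2).symm)
    rcases this with rfl | rfl
    · exact E.one_mem
    · exact X.mem
  push Not at hDE
  obtain ⟨e, he, heD⟩ := hDE
  have hDleE : D ≤ E := inf_le_left
  -- `D` has index two in `E`
  have hidx : (D.subgroupOf E).index = 2 := by
    have h1 : Nat.card (D.subgroupOf E) * (D.subgroupOf E).index = Nat.card E :=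
      Subgroup.card_mul_index _
    have h3 : Nat.card (D.subgroupOf E) = Nat.card D :=
      Nat.card_congr (Subgroup.subgroupOfEquivOfLe hDleE).toEquiv
    rw [h3] at h1
    have hpos : 0 < Nat.card D := Nat.card_pos
    have h4 : (D.subgroupOf E).index ≠ 1 := by
      intro h5
      rw [Subgroup.index_eq_one] at h5
      apply heD
      have : (⟨e, he⟩ : E) ∈ D.subgroupOf E := by rw [h5]; trivial
      exact Subgroup.mem_subgroupOf.1 this
    have h5 : (D.subgroupOf E).index ≠ 0 := Subgroup.index_ne_zero_of_finite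
    have h6 : Nat.card D * (D.subgroupOf E).index ≤ Nat.card D * 2 := by
      rw [h1]; change Nat.card E ≤ 2 * Nat.card D at hc; omega
    have h7 := Nat.le_of_mul_le_mul_left h6 hpos
    omega
  have hcos : ∀ w ∈ E, w ∉ D → e⁻¹ * w ∈ D := by
    intro w hw hwD
    have h1 := (Subgroup.mul_mem_iff_of_index_two hidx (a := (⟨e⁻¹, E.inv_mem he⟩ : E)) (b := ⟨w, hw⟩))
    simp only [Subgroup.mem_subgroupOf, Subgroup.coe_mul] at h1
    rw [h1]
    constructor
    · intro h2
      exact absurd ((by simpa using D.inv_mem h2) : e ∈ D) heD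
    · intro h2
      exact absurd h2 hwD
  -- the action on `e`
  set c := e⁻¹ * (a * e * a⁻¹) with hc'
  have hcE : c ∈ E := E.mul_mem (E.inv_mem he) (hS.nQ a haz e he)
  have hec : a * e * a⁻¹ = e * c := by rw [hc']; group
  have hcD : ∀ w ∈ D, c * w = w * c := by
    intro w hw
    have hw' := (hmemD w).1 hw
    have hcommfix : a * (e * w * e⁻¹ * w⁻¹) * a⁻¹ = e * w * e⁻¹ * w⁻¹ := by
      rcases X.comm e he w hw'.1 with h | h
      · rw [h]; group
      · rw [h]; exact hazc
    have h2 : a * (e * w * e⁻¹ * w⁻¹) * a⁻¹ = (e * c) * w * (e * c)⁻¹ * w⁻¹ := by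
      have e1 : a * (e * w * e⁻¹ * w⁻¹) * a⁻¹
          = (a * e * a⁻¹) * (a * w * a⁻¹) * (a * e * a⁻¹)⁻¹ * (a * w * a⁻¹)⁻¹ := by group
      rw [e1, hw'.2, hec]
    rw [hcommfix] at h2
    have h3 : c * w * c⁻¹ = w := by
      have h4 : e * (c * w * c⁻¹) * e⁻¹ = e * w * e⁻¹ := by
        have : e * w * e⁻¹ * w⁻¹ = e * (c * w * c⁻¹) * e⁻¹ * w⁻¹ := by
          rw [h2]; group
        exact (mul_right_cancel this).symm
      exact mul_left_cancel (mul_right_cancel h4)
    exact comm_of_conj_eq h3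
  have hzD : z ∈ D := (hmemD z).2 ⟨X.mem, hazc⟩
  have hcmemD : c ∈ D := by
    by_contra hcnot
    have h3 : ∀ y ∈ E, c * y = y * c := by
      intro y hy
      by_cases hyD : y ∈ D
      · exact hcD y hyD
      · -- `y = c d`
        have h1 := (Subgroup.mul_mem_iff_of_index_two hidx (a := (⟨c⁻¹, E.inv_mem hcE⟩ : E)) (b := ⟨y, hy⟩))
        simp only [Subgroup.mem_subgroupOf, Subgroup.coe_mul] at h1
        have h2 : c⁻¹ * y ∈ D := by
          rw [h1]
          constructor
          · intro h2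
            exact absurd ((by simpa using D.inv_mem h2) : c ∈ D) hcnot
          · intro h2
            exact absurd h2 hyD
        have h4 := hcD _ h2
        calc c * y = c * (c * (c⁻¹ * y)) := by group
          _ = c * ((c⁻¹ * y) * c) := by rw [h4]
          _ = y * c := by group
    rcases X.central c hcE h3 with h4 | h4
    · exact hcnot (by rw [h4]; exact D.one_mem)
    · exact hcnot (by rw [h4]; exact hzD)
  have hacc : a * c * a⁻¹ = c := ((hmemD c).1 hcmemD).2
  have hcc : c * c = 1 := by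
    have h1 : a * (a * e * a⁻¹) * a⁻¹ = e := by
      rw [hai]
      calc a * (a * e * a) * a = (a * a) * e * (a * a) := by group
        _ = e := by rw [haa]; group
    rw [hec] at h1
    have h2 : a * (e * c) * a⁻¹ = (a * e * a⁻¹) * (a * c * a⁻¹) := by group
    rw [h2, hec, hacc] at h1
    have h3 : e * (c * c) = e * 1 := by rw [mul_one, ← mul_assoc]; exact h1
    exact mul_left_cancel h3
  have hci : c⁻¹ = c := inv_eq_of_mul_eq_one_left hcc
  have hce : c * e = e * c := by
    have h1 : (e * c) * (e * c) = e * e := by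
      rw [← hec]
      have h2 : (a * e * a⁻¹) * (a * e * a⁻¹) = a * (e * e) * a⁻¹ := by group
      rw [h2]
      have h3 := X.sq e he
      rw [pow_two] at h3
      rcases h3 with h3 | h3
      · rw [h3]; group
      · rw [h3]; exact hazc
    have h2 : c * (e * c) = e := by
      have : e * (c * (e * c)) = e * e := by rw [← h1]; group
      exact mul_left_cancel this
    calc c * e = c * e * (c * c) := by rw [hcc, mul_one]
      _ = (c * (e * c)) * c := by group
      _ = e * c := by rw [h2]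
  have hcz : c = z := by
    have h3 : ∀ y ∈ E, c * y = y * c := by
      intro y hy
      by_cases hyD : y ∈ D
      · exact hcD y hyD
      · have h4 := hcD _ (hcos y hy hyD)
        calc c * y = c * (e * (e⁻¹ * y)) := by group
          _ = (c * e) * (e⁻¹ * y) := by group
          _ = (e * c) * (e⁻¹ * y) := by rw [hce]
          _ = e * (c * (e⁻¹ * y)) := by group
          _ = e * ((e⁻¹ * y) * c) := by rw [h4]
          _ = y * c := by group
    rcases X.central c hcE h3 with h4 | h4
    · exfalso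
      apply heD
      refine (hmemD e).2 ⟨he, ?_⟩
      rw [hec, h4, mul_one]
    · exact h4
  -- conclude
  apply mem_of_central hS haz
  intro w hw
  by_cases hwD : w ∈ D
  · exact Or.inl ((hmemD w).1 hwD).2
  · right
    have h4 := (hmemD _).1 (hcos w hw hwD)
    have e2 : a * w * a⁻¹ = (a * e * a⁻¹) * (a * (e⁻¹ * w) * a⁻¹) := by group
    rw [e2, h4.2, hec, hcz]
    have h5 : z * (e⁻¹ * w) = (e⁻¹ * w) * z := (hcenz _ h4.1).symm
    calc e * z * (e⁻¹ * w) = e * (z * (e⁻¹ * w)) := by group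
      _ = e * ((e⁻¹ * w) * z) := by rw [h5]
      _ = w * z := by group

/-- An abelian subgroup of `E` through `z` has square order at most `2 |E|`. -/
theorem card_sq_le_of_comm (X : ExtraAt E z) {D : Subgroup G} (hD : D ≤ E) (hz : z ∈ D)
    (hab : ∀ a ∈ D, ∀ b ∈ D, a * b = b * a) : Nat.card D * Nat.card D ≤ 2 * Nat.card E := by
  have h1 := Cfsg.Agent.Lib.ExtraDual.card_mul_centralizer X hD hz
  have h2 : D ≤ E ⊓ Subgroup.centralizer (D : Set G) :=
    le_inf hD (fun a ha => Subgroup.mem_centralizer_iff.2 fun b hb => hab b hb a ha)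
  have h3 : Nat.card D ≤ Nat.card ↥(E ⊓ Subgroup.centralizer (D : Set G)) :=
    Subgroup.card_le_of_le h2
  calc Nat.card D * Nat.card D ≤ Nat.card D * Nat.card ↥(E ⊓ Subgroup.centralizer (D : Set G)) :=
        Nat.mul_le_mul_left _ h3
    _ = 2 * Nat.card E := h1

end Central

end Cfsg.Agent.Lib.BlockExtra
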