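import Mathlib
import Cfsg.Agent.Lib.BlockExtra
import Cfsg.Agent.Lib.ThompsonTransfer

/-!
# Extraspecial `O₂(C(z))`: the main consequences of block transfer
-/

set_option autoImplicit false
set_option linter.unusedSectionVars false
set_option linter.unusedVariables false
set_option linter.style.haveILetI false
set_option linter.unusedSimpArgs false

namespace Cfsg.Agent.Lib.BlockMain

open Cfsg.Agent.Lib.BlockTransfer Cfsg.Agent.Lib.BlockExtra Cfsg.Agent.Lib.LargeExtra
  Cfsg.Agent.Lib.LargeIdx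

variable {G : Type*} [Group G] [Finite G] {z : G} {E : Subgroup G}

/-- A Sylow `2`-subgroup of `G` inside `H` cannot lie in a subgroup of index two of `H`. -/
theorem sylow_not_le (T : Sylow 2 G) {H : Subgroup G} (M : Subgroup H) (hM : M.index = 2)
    (hTH : (T : Subgroup G) ≤ H)
    (hT : ∀ t (ht : t ∈ (T : Subgroup G)), (⟨t, hTH ht⟩ : H) ∈ M) : False := by
  haveI : Fact (Nat.Prime 2) := ⟨Nat.prime_two⟩
  apply T.not_dvd_index
  have hle : (T : Subgroup G).subgroupOf H ≤ M := by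
    intro x hx
    exact hT x (Subgroup.mem_subgroupOf.1 hx)
  have h1 := Subgroup.relIndex_mul_index hTH
  have h2 := Subgroup.relIndex_mul_index hle
  rw [← h1]
  show 2 ∣ ((T : Subgroup G).subgroupOf H).index * H.index
  rw [← h2, hM]
  exact Dvd.dvd.mul_right (Dvd.intro_left _ rfl) _

theorem mem_cent {x : G} : x ∈ Subgroup.centralizer ({z} : Set G) ↔ x * z = z * x := by
  rw [Subgroup.mem_centralizer_singleton_iff]

theorem fix_iff {q : G ⧸ Subgroup.centralizer ({z} : Set G)} {x : G} :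
    x • q = q ↔ x * (q.out * z * q.out⁻¹) = (q.out * z * q.out⁻¹) * x := by
  rw [smul_eq_iff, mem_cent]
  constructor
  · intro h
    calc x * (q.out * z * q.out⁻¹) = q.out * ((q.out⁻¹ * x * q.out) * z) * q.out⁻¹ := by group
      _ = q.out * (z * (q.out⁻¹ * x * q.out)) * q.out⁻¹ := by rw [h]
      _ = (q.out * z * q.out⁻¹) * x := by group
  · intro h
    calc (q.out⁻¹ * x * q.out) * z = q.out⁻¹ * (x * (q.out * z * q.out⁻¹)) * q.out := by group
      _ = q.out⁻¹ * ((q.out * z * q.out⁻¹) * x) * q.out := by rw [h]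
      _ = z * (q.out⁻¹ * x * q.out) := by group

theorem conj_ne {q : G ⧸ Subgroup.centralizer ({z} : Set G)}
    (hq : q ≠ ((1 : G) : G ⧸ Subgroup.centralizer ({z} : Set G))) :
    q.out * z * q.out⁻¹ ≠ z := by
  intro h
  apply hq
  have h1 : q.out ∈ Subgroup.centralizer ({z} : Set G) := by
    rw [mem_cent]
    calc q.out * z = (q.out * z * q.out⁻¹) * q.out := by group
      _ = z * q.out := by rw [h]
  have h2 : ((q.out : G) : G ⧸ Subgroup.centralizer ({z} : Set G)) = ((1 : G) : G ⧸ _) :=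
    QuotientGroup.eq.2 (by simpa using h1)
  rwa [QuotientGroup.out_eq'] at h2

variable {A : Type*} [CommGroup A]

/-- The centralizer of `z`. -/
abbrev Hz (z : G) : Subgroup G := Subgroup.centralizer ({z} : Set G)

theorem nu_inv {K : Subgroup G} (μ : K →* A) {S : Subgroup G} {q : G ⧸ K} {s : G} (hs : s ∈ S) :
    nu μ (orb S q) s⁻¹ = (nu μ (orb S q) s)⁻¹ := by
  have h := nu_mul μ (B := orb S q) s⁻¹ (stab_orb hs)
  rw [inv_mul_cancel, nu_one] at h
  exact eq_inv_of_mul_eq_one_left h.symm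

theorem nu_comm {K : Subgroup G} (μ : K →* A) {S : Subgroup G} {q : G ⧸ K} {s t : G}
    (hs : s ∈ S) (ht : t ∈ S) : nu μ (orb S q) (s * t * s⁻¹ * t⁻¹) = 1 := by
  rw [nu_mul μ _ (stab_orb (S.inv_mem ht)), nu_mul μ _ (stab_orb (S.inv_mem hs)),
    nu_mul μ _ (stab_orb ht), nu_inv μ hs, nu_inv μ ht]
  simp [mul_comm]

/-- Local analysis at a coset `q` fixed by `z` (`a = q.out z q.out⁻¹`). -/
theorem mem_S₀_iff (T : Subgroup G) (q : G ⧸ Subgroup.centralizer ({z} : Set G)) (x : G) :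
    x ∈ T ⊓ MulAction.stabilizer G q ↔ x ∈ T ∧ x * (q.out * z * q.out⁻¹) = (q.out * z * q.out⁻¹) * x := by
  show x ∈ T ∧ x ∈ MulAction.stabilizer G q ↔ _
  rw [MulAction.mem_stabilizer_iff, fix_iff]

/-- **Core of the index two statement**: If `(Hz z)` has a subgroup of index two, `|E| ≥ 128` and `z`
is only conjugate to itself in `E`, we reach a contradiction. -/
theorem core_index_two (hres : Cfsg.pResidual 2 G = ⊤) (hS : Setting E z)
    (hno : ∀ g : G, g * z * g⁻¹ ∈ E → g * z * g⁻¹ = z) (hcard : 128 ≤ Nat.card E)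
    (M : Subgroup (Subgroup.centralizer ({z} : Set G))) (hM : M.index = 2) : False := by
  classical
  haveI : Fact (Nat.Prime 2) := ⟨Nat.prime_two⟩
  have X := hS.extra
  have hzz := X.sq_eq
  obtain ⟨T, hET, hTz⟩ := exists_sylow hS
  have hT2 : IsPGroup 2 (T : Subgroup G) := T.isPGroup'
  have hTH : (T : Subgroup G) ≤ (Hz z) := fun t ht => mem_cent.2 (hTz t ht)
  let μ : (Hz z) →* ℤˣ := Cfsg.Agent.Lib.ThompsonTransfer.signHom M hM
  have hA : ∀ a : ℤˣ, a * a = 1 := Int.units_mul_self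
  have hV : ∀ g, transferHom μ g = 1 :=
    Cfsg.Agent.Lib.ThompsonTransfer.hom_units_eq_one (no_index_two hres) _
  have hblock : ∀ q : G ⧸ (Hz z), q ≠ ((1 : G) : G ⧸ (Hz z)) → ∃ S : Subgroup G, Blk (T : Subgroup G) S q ∧
      ∀ s ∈ S, nu μ (orb S q) s = 1 := by
    intro q hq
    set S₀ : Subgroup G := (T : Subgroup G) ⊓ MulAction.stabilizer G q with hS₀
    have hB : Blk (T : Subgroup G) S₀ q := blk_base _ q
    by_cases hzS : z ∈ S₀
    swap
    · exact block_of_move hS hET hTz μ hA hB hzS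
    set a := q.out * z * q.out⁻¹ with ha
    have hzq := (mem_S₀_iff (T : Subgroup G) q z).1 hzS
    have haz : a * z = z * a := hzq.2.symm
    have haa : a * a = 1 := by
      have e1 : a * a = q.out * (z * z) * q.out⁻¹ := by rw [ha]; group
      rw [e1, hzz]; group
    have hane : a ≠ z := conj_ne hq
    have haE : a ∉ E := fun h => hane (hno q.out h)
    have hD : E ⊓ S₀ = E ⊓ Subgroup.centralizer ({a} : Set G) := by
      ext x
      constructor
      · rintro ⟨h1, h2⟩
        exact ⟨h1, mem_cent.2 ((mem_S₀_iff (T : Subgroup G) q x).1 h2).2⟩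
      · rintro ⟨h1, h2⟩
        exact ⟨h1, (mem_S₀_iff (T : Subgroup G) q x).2 ⟨hET h1, mem_cent.1 h2⟩⟩
    have hc : 2 * Nat.card ↥(E ⊓ S₀) < Nat.card E := by
      by_contra hcon
      push Not at hcon
      apply haE
      apply mem_of_index_two hS haz haa
      rw [← hD]; exact hcon
    have hpos : 0 < Nat.card E := Nat.card_pos
    have hnot : ¬ E ≤ S₀ := by
      intro hle
      rw [inf_eq_left.2 hle] at hc
      omega
    by_cases hν : nu μ (orb S₀ q) z = 1
    · exact two_step hS hT2 hET hTz μ hA hB hzS hnot hν hc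
    · have hab : ∀ x ∈ E ⊓ S₀, ∀ y ∈ E ⊓ S₀, x * y = y * x := by
        intro x hx y hy
        rcases X.comm x hx.1 y hy.1 with h | h
        · have h1 : x * y * x⁻¹ = y := by
            have := mul_inv_eq_one.1 h
            exact this
          exact comm_of_conj_eq h1
        · exfalso
          apply hν
          have h2 := nu_comm μ (q := q) hx.2 hy.2
          rw [h] at h2
          exact h2
      have hsq := card_sq_le_of_comm X (D := E ⊓ S₀) inf_le_left ⟨X.mem, hzS⟩ hab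
      have hc4 : 4 * Nat.card ↥(E ⊓ S₀) < Nat.card E := by
        by_contra hcon
        push Not at hcon
        have h1 : Nat.card E * Nat.card E ≤ (4 * Nat.card ↥(E ⊓ S₀)) * (4 * Nat.card ↥(E ⊓ S₀)) :=
          Nat.mul_le_mul hcon hcon
        have h2 : 128 * Nat.card E ≤ Nat.card E * Nat.card E := Nat.mul_le_mul_right _ hcard
        nlinarith
      exact three_step hS hT2 hET hTz μ hA hB hzS hnot hc4
  have hall : ∀ t (ht : t ∈ (T : Subgroup G)), μ ⟨t, hTH ht⟩ = 1 :=
    fun t ht => mu_eq_one μ hTH hV hblock ht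
  refine sylow_not_le T M hM hTH fun t ht => ?_
  by_contra hnot
  have h1 := Cfsg.Agent.Lib.ThompsonTransfer.signHom_of_not_mem M hM hnot
  have h2 := hall t ht
  rw [show μ ⟨t, hTH ht⟩ = -1 from h1] at h2
  exact absurd h2 (by decide)

/-- **Core of the `ℤ/4` statement**: for `|E| ≥ 32`, there is no homomorphism `(Hz z) → B` and `κ : B → ℤˣ`
with `κ` trivial on involutions of `B` and `κ ∘ λ` nontrivial. -/
theorem core_Z4 (hres : Cfsg.pResidual 2 G = ⊤) (hS : Setting E z) (hcard : 32 ≤ Nat.card E)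
    {B : Type*} [CommGroup B] (l : Subgroup.centralizer ({z} : Set G) →* B) (κ : B →* ℤˣ)
    (hκ : ∀ b, b * b = 1 → κ b = 1) (hsurj : ∃ y, κ (l y) ≠ 1) : False := by
  classical
  haveI : Fact (Nat.Prime 2) := ⟨Nat.prime_two⟩
  have X := hS.extra
  have hzz := X.sq_eq
  obtain ⟨T, hET, hTz⟩ := exists_sylow hS
  have hT2 : IsPGroup 2 (T : Subgroup G) := T.isPGroup'
  have hTH : (T : Subgroup G) ≤ (Hz z) := fun t ht => mem_cent.2 (hTz t ht)
  let μ : (Hz z) →* ℤˣ := κ.comp l
  have hμ : ∀ y : (Hz z), μ y = κ (l y) := fun y => rfl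
  have hA : ∀ a : ℤˣ, a * a = 1 := Int.units_mul_self
  have hV : ∀ g, transferHom μ g = 1 :=
    Cfsg.Agent.Lib.ThompsonTransfer.hom_units_eq_one (no_index_two hres) _
  have hF2 : ∀ y : (Hz z), l (y * y) = 1 → μ y = 1 := by
    intro y hy
    rw [hμ]
    apply hκ
    rw [← map_mul]; exact hy
  have hF1 : ∀ y : (Hz z), y * y = 1 → μ y = 1 := by
    intro y hy
    apply hF2
    rw [hy, map_one]
  have hblock : ∀ q : G ⧸ (Hz z), q ≠ ((1 : G) : G ⧸ (Hz z)) → ∃ S : Subgroup G, Blk (T : Subgroup G) S q ∧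
      ∀ s ∈ S, nu μ (orb S q) s = 1 := by
    intro q hq
    set S₀ : Subgroup G := (T : Subgroup G) ⊓ MulAction.stabilizer G q with hS₀
    have hB : Blk (T : Subgroup G) S₀ q := blk_base _ q
    by_cases hzS : z ∈ S₀
    swap
    · exact block_of_move hS hET hTz μ hA hB hzS
    set g := q.out with hg
    set a := g * z * g⁻¹ with ha
    have hane : a ≠ z := conj_ne hq
    have hzfix : z • q = q := hzS.2
    have hnot : ¬ E ≤ S₀ := by
      intro hle
      have h1 : ∀ y ∈ E, y * a = a * y := fun y hy => ((mem_S₀_iff (T : Subgroup G) q y).1 (hle hy)).2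
      rcases hS.cQ a h1 with h | h
      · have h2 : z = 1 := by
          have : g * z * g⁻¹ = 1 := h
          have h3 : g * z * g⁻¹ = g * 1 * g⁻¹ := by rw [this]; group
          exact mul_left_cancel (mul_right_cancel h3)
        exact X.ne_one h2
      · exact hane h
    -- conjugates
    have hconj : ∀ x (hx : x ∈ S₀), nu μ (orb S₀ q) x = μ ⟨g⁻¹ * x * g, smul_eq_iff.1 hx.2⟩ := by
      intro x hx
      rw [nu_base, eps_of_fix μ hx.2]
    have hνz : nu μ (orb S₀ q) z = 1 := by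
      rw [hconj z hzS]
      apply hF1
      apply Subtype.ext
      show g⁻¹ * z * g * (g⁻¹ * z * g) = 1
      calc g⁻¹ * z * g * (g⁻¹ * z * g) = g⁻¹ * (z * z) * g := by group
        _ = 1 := by rw [hzz]; group
    by_cases hc : 2 * Nat.card ↥(E ⊓ S₀) < Nat.card E
    · exact two_step hS hT2 hET hTz μ hA hB hzS hnot hνz hc
    push Not at hc
    -- `E ⊓ S₀` is nonabelian
    have hnonab : ∃ x ∈ E ⊓ S₀, ∃ y ∈ E ⊓ S₀, x * y ≠ y * x := by
      by_contra hcon
      push Not at hcon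
      have hsq := card_sq_le_of_comm X (D := E ⊓ S₀) inf_le_left ⟨X.mem, hzS⟩ hcon
      have h1 : Nat.card E * Nat.card E ≤ (2 * Nat.card ↥(E ⊓ S₀)) * (2 * Nat.card ↥(E ⊓ S₀)) :=
        Nat.mul_le_mul hc hc
      have h2 : 32 * Nat.card E ≤ Nat.card E * Nat.card E := Nat.mul_le_mul_right _ hcard
      have hpos : 0 < Nat.card E := Nat.card_pos
      nlinarith
    obtain ⟨x, hx, y, hy, hxy⟩ := hnonab
    have hxyz : x * y * x⁻¹ * y⁻¹ = z := by
      rcases X.comm x hx.1 y hy.1 with h | h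
      · exfalso
        apply hxy
        exact comm_of_conj_eq (mul_inv_eq_one.1 h)
      · exact h
    have hmemH : ∀ w (hw : w ∈ S₀), g⁻¹ * w * g ∈ (Hz z) := fun w hw => smul_eq_iff.1 hw.2
    have hlz : l ⟨g⁻¹ * z * g, hmemH z hzS⟩ = 1 := by
      have e1 : (⟨g⁻¹ * z * g, hmemH z hzS⟩ : (Hz z)) =
          (⟨g⁻¹ * x * g, hmemH x hx.2⟩ : (Hz z)) * ⟨g⁻¹ * y * g, hmemH y hy.2⟩ *
            (⟨g⁻¹ * x * g, hmemH x hx.2⟩ : (Hz z))⁻¹ * (⟨g⁻¹ * y * g, hmemH y hy.2⟩ : (Hz z))⁻¹ := by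
        apply Subtype.ext
        simp only [Subgroup.coe_mul, InvMemClass.coe_inv]
        rw [← hxyz]; group
      rw [e1]
      simp only [map_mul, map_inv]
      simp [mul_comm]
    refine one_step hS hT2 hET hTz μ hA hB hzS hnot ?_
    intro w hwE hwS
    rw [hconj w hwS]
    apply hF2
    have hsq := X.sq w hwE
    rw [pow_two] at hsq
    rcases hsq with h | h
    · have e1 : (⟨g⁻¹ * w * g, hmemH w hwS⟩ : (Hz z)) * ⟨g⁻¹ * w * g, hmemH w hwS⟩ = 1 := by
        apply Subtype.ext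
        show g⁻¹ * w * g * (g⁻¹ * w * g) = 1
        calc g⁻¹ * w * g * (g⁻¹ * w * g) = g⁻¹ * (w * w) * g := by group
          _ = 1 := by rw [h]; group
      rw [e1, map_one]
    · have e1 : (⟨g⁻¹ * w * g, hmemH w hwS⟩ : (Hz z)) * ⟨g⁻¹ * w * g, hmemH w hwS⟩
          = ⟨g⁻¹ * z * g, hmemH z hzS⟩ := by
        apply Subtype.ext
        show g⁻¹ * w * g * (g⁻¹ * w * g) = g⁻¹ * z * g
        calc g⁻¹ * w * g * (g⁻¹ * w * g) = g⁻¹ * (w * w) * g := by group
          _ = g⁻¹ * z * g := by rw [h]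
      rw [e1, hlz]
  have hall : ∀ t (ht : t ∈ (T : Subgroup G)), μ ⟨t, hTH ht⟩ = 1 :=
    fun t ht => mu_eq_one μ hTH hV hblock ht
  have hidx : μ.ker.index = 2 := by
    rw [Subgroup.index_ker]
    have hle : Nat.card μ.range ≤ 2 := by
      calc Nat.card μ.range ≤ Nat.card ℤˣ :=
            Nat.card_le_card_of_injective (fun a => (a : ℤˣ)) Subtype.val_injective
        _ = 2 := by simp [Nat.card_eq_fintype_card]
    obtain ⟨y, hy⟩ := hsurj
    have hrange : 2 ≤ Nat.card μ.range := by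
      have h1 : (1 : μ.range) ≠ ⟨μ y, ⟨y, rfl⟩⟩ := by
        intro h
        apply hy
        exact (congrArg Subtype.val h).symm
      haveI : Nontrivial μ.range := ⟨⟨_, _, h1⟩⟩
      exact Nat.succ_le_of_lt (Finite.one_lt_card (α := μ.range))
    omega
  exact sylow_not_le T μ.ker hidx hTH fun t ht => MonoidHom.mem_ker.2 (hall t ht)

end Cfsg.Agent.Lib.BlockMain
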