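import Mathlib
import Cfsg.Agent.Lib.BlockMain

/-!
# Extraspecial `O₂(C(z))` of order `8`: involutions in the abelianization of `C(z)`
-/

set_option autoImplicit false
set_option linter.unusedSectionVars false
set_option linter.unusedVariables false
set_option linter.style.haveILetI false
set_option linter.unusedSimpArgs false

namespace Cfsg.Agent.Lib.BlockEight

open Cfsg.Agent.Lib.BlockExtra Cfsg.Agent.Lib.LargeExtra Cfsg.Agent.Lib.BlockMain

variable {G : Type*} [Group G] {z : G} {E : Subgroup G}

/-- Equality modulo `z`. -/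
def Eqz (z x y : G) : Prop := x = y ∨ x = y * z

theorem Eqz.rfl' (x : G) : Eqz z x x := Or.inl rfl

theorem Eqz.symm (X : ExtraAt E z) {x y : G} (h : Eqz z x y) : Eqz z y x := by
  rcases h with rfl | rfl
  · exact Or.inl rfl
  · right
    rw [mul_assoc, X.sq_eq, mul_one]

theorem Eqz.trans (X : ExtraAt E z) {x y w : G} (h : Eqz z x y) (h' : Eqz z y w) : Eqz z x w := by
  rcases h with rfl | rfl
  · exact h'
  · rcases h' with rfl | rfl
    · exact Or.inr rfl
    · left
      rw [mul_assoc, X.sq_eq, mul_one]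

theorem Eqz.mul (X : ExtraAt E z) {x₁ x₂ y₁ y₂ : G} (hy : y₂ ∈ E) (h₁ : Eqz z x₁ y₁)
    (h₂ : Eqz z x₂ y₂) : Eqz z (x₁ * x₂) (y₁ * y₂) := by
  have hc := X.cen y₂ hy
  rcases h₁ with rfl | rfl <;> rcases h₂ with rfl | rfl
  · exact Or.inl rfl
  · right; group
  · right
    calc y₁ * z * x₂ = y₁ * (z * x₂) := by group
      _ = y₁ * (x₂ * z) := by rw [hc]
      _ = y₁ * x₂ * z := by group
  · left
    calc y₁ * z * (y₂ * z) = y₁ * (z * y₂) * z := by group
      _ = y₁ * (y₂ * z) * z := by rw [hc]
      _ = y₁ * y₂ * (z * z) := by group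
      _ = y₁ * y₂ := by rw [X.sq_eq, mul_one]

theorem Eqz.inv (X : ExtraAt E z) {x y : G} (hy : y ∈ E) (h : Eqz z x y) : Eqz z x⁻¹ y⁻¹ := by
  rcases h with rfl | rfl
  · exact Or.inl rfl
  · right
    have h1 : z⁻¹ = z := inv_eq_of_mul_eq_one_left X.sq_eq
    have h2 := X.cen y⁻¹ (E.inv_mem hy)
    rw [mul_inv_rev, h1, ← h2]

theorem Eqz.self_inv (X : ExtraAt E z) {x : G} (hx : x ∈ E) : Eqz z x⁻¹ x := by
  have h := X.sq x hx
  rw [pow_two] at h
  rcases h with h | h
  · left
    exact inv_eq_of_mul_eq_one_left h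
  · right
    apply inv_eq_of_mul_eq_one_left
    calc x * z * x = x * (z * x) := by group
      _ = x * (x * z) := by rw [X.cen x hx]
      _ = (x * x) * z := by group
      _ = 1 := by rw [h, X.sq_eq]

theorem Eqz.comm (X : ExtraAt E z) {x y : G} (hx : x ∈ E) (hy : y ∈ E) : Eqz z (x * y) (y * x) := by
  have hc := X.cen x hx
  have hc' := X.cen y hy
  rcases X.comm x hx y hy with h | h
  · left
    have h1 : x * y * x⁻¹ = y := mul_inv_eq_one.1 h
    exact comm_of_conj_eq h1
  · right
    have h1 : x * y = z * (y * x) := by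
      rw [← h]; group
    rw [h1]
    calc z * (y * x) = (z * y) * x := by group
      _ = (y * z) * x := by rw [hc']
      _ = y * (z * x) := by group
      _ = y * (x * z) := by rw [hc]
      _ = y * x * z := by group

theorem Eqz.conj {t x y : G} (ht : t * z = z * t) (h : Eqz z x y) :
    Eqz z (t * x * t⁻¹) (t * y * t⁻¹) := by
  rcases h with rfl | rfl
  · exact Or.inl rfl
  · right
    calc t * (y * z) * t⁻¹ = t * y * t⁻¹ * (t * z * t⁻¹) := by group
      _ = t * y * t⁻¹ * z := by rw [conj_eq_of_comm ht]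

/-- The subgroup `{1, z, u, u z}`. -/
def pSub (X : ExtraAt E z) {u : G} (hu : u ∈ E) : Subgroup G where
  carrier := {x | x = 1 ∨ x = z ∨ x = u ∨ x = u * z}
  one_mem' := Or.inl rfl
  mul_mem' := by
    have hzu : z * u = u * z := (X.cen u hu).symm
    have hzz := X.sq_eq
    have huu : u * u = 1 ∨ u * u = z := by simpa [pow_two] using X.sq u hu
    have e1 : z * (u * z) = u := by
      calc z * (u * z) = (z * u) * z := by group
        _ = u * (z * z) := by rw [hzu]; group
        _ = u := by rw [hzz, mul_one]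
    have e2 : u * (u * z) = 1 ∨ u * (u * z) = z := by
      rcases huu with h | h
      · right; rw [← mul_assoc, h, one_mul]
      · left; rw [← mul_assoc, h, hzz]
    have e3 : u * z * z = u := by rw [mul_assoc, hzz, mul_one]
    have e4 : u * z * u = 1 ∨ u * z * u = z := by
      have : u * z * u = u * (u * z) := by
        calc u * z * u = u * (z * u) := by group
          _ = u * (u * z) := by rw [hzu]
      rw [this]; exact e2
    have e5 : u * z * (u * z) = 1 ∨ u * z * (u * z) = z := by
      have : u * z * (u * z) = u * u := by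
        calc u * z * (u * z) = u * (z * (u * z)) := by group
          _ = u * u := by rw [e1]
      rw [this]; exact huu
    rintro a b (rfl | rfl | rfl | rfl) (rfl | rfl | rfl | rfl)
    · left; simp
    · right; left; simp
    · right; right; left; simp
    · right; right; right; simp
    · right; left; simp
    · left; exact hzz
    · right; right; right; exact hzu
    · right; right; left; exact e1
    · right; right; left; simp
    · right; right; right; rfl
    · rcases huu with h | h
      · left; exact h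
      · right; left; exact h
    · rcases e2 with h | h
      · left; exact h
      · right; left; exact h
    · right; right; right; simp
    · right; right; left; exact e3
    · rcases e4 with h | h
      · left; exact h
      · right; left; exact h
    · rcases e5 with h | h
      · left; exact h
      · right; left; exact h
  inv_mem' := by
    have hzu : z * u = u * z := (X.cen u hu).symm
    have hzi : z⁻¹ = z := X.inv_eq
    have h1 : u⁻¹ = u ∨ u⁻¹ = u * z := Eqz.self_inv X hu
    rintro a (rfl | rfl | rfl | rfl)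
    · left; simp
    · right; left; exact hzi
    · rcases h1 with h | h
      · right; right; left; exact h
      · right; right; right; exact h
    · rw [Set.mem_ofPred_eq, mul_inv_rev, hzi]
      rcases h1 with h | h
      · right; right; right; rw [h, hzu]
      · right; right; left
        rw [h]
        calc z * (u * z) = (z * u) * z := by group
          _ = u * (z * z) := by rw [hzu]; group
          _ = u := by rw [X.sq_eq, mul_one]

theorem mem_pSub (X : ExtraAt E z) {u x : G} (hu : u ∈ E) :
    x ∈ pSub X hu ↔ x = 1 ∨ x = z ∨ x = u ∨ x = u * z := Iff.rfl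

/-- In a group of order `8`: two elements outside `{1, z, u, u z}` have product in it. -/
theorem pair_mul [Finite G] (X : ExtraAt E z) (hcard : Nat.card E = 8) {u x y : G} (hu : u ∈ E)
    (hu1 : u ≠ 1) (huz : u ≠ z) (hx : x ∈ E) (hy : y ∈ E)
    (hxP : ¬ (x = 1 ∨ x = z ∨ x = u ∨ x = u * z)) (hyP : ¬ (y = 1 ∨ y = z ∨ y = u ∨ y = u * z)) :
    x * y = 1 ∨ x * y = z ∨ x * y = u ∨ x * y = u * z := by
  classical
  let P := pSub X hu
  have hPE : P ≤ E := by
    rintro a (rfl | rfl | rfl | rfl)
    · exact E.one_mem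
    · exact X.mem
    · exact hu
    · exact E.mul_mem hu X.mem
  have hz1 : z ≠ 1 := X.ne_one
  have hcardP : 4 ≤ Nat.card P := by
    let F : Finset G := {1, z, u, u * z}
    have hF : F.card = 4 := by
      have h1 : (1 : G) ≠ z := hz1.symm
      have h2 : (1 : G) ≠ u := hu1.symm
      have h3 : (1 : G) ≠ u * z := by
        intro h
        apply huz
        calc u = (u * z) * z := by rw [mul_assoc, X.sq_eq, mul_one]
          _ = z := by rw [← h, one_mul]
      have h4 : z ≠ u := huz.symm
      have h5 : z ≠ u * z := by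
        intro h
        apply hu1
        have : (1 : G) * z = u * z := by rw [one_mul]; exact h
        exact (mul_right_cancel this).symm
      have h6 : u ≠ u * z := by
        intro h
        apply hz1
        have : u * 1 = u * z := by rw [mul_one]; exact h
        exact (mul_left_cancel this).symm
      simp [F, h1, h2, h3, h4, h5, h6]
    have hsub : (F : Set G) ⊆ (P : Set G) := by
      intro a ha
      have h3 : a = 1 ∨ a = z ∨ a = u ∨ a = u * z := by simpa [F] using ha
      exact h3
    have h2 := Set.ncard_le_ncard hsub (Set.toFinite _)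
    rw [Set.ncard_coe_finset, hF] at h2
    exact h2
  have hidx : (P.subgroupOf E).index = 2 := by
    have h1 : Nat.card (P.subgroupOf E) * (P.subgroupOf E).index = Nat.card E :=
      Subgroup.card_mul_index _
    have h3 : Nat.card (P.subgroupOf E) = Nat.card P :=
      Nat.card_congr (Subgroup.subgroupOfEquivOfLe hPE).toEquiv
    rw [h3, hcard] at h1
    have h4 : (P.subgroupOf E).index ≠ 1 := by
      intro h5
      rw [Subgroup.index_eq_one] at h5
      apply hxP
      have : (⟨x, hx⟩ : E) ∈ P.subgroupOf E := by rw [h5]; trivial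
      exact Subgroup.mem_subgroupOf.1 this
    have h5 : (P.subgroupOf E).index ≠ 0 := Subgroup.index_ne_zero_of_finite
    have h6 : Nat.card P * (P.subgroupOf E).index ≤ Nat.card P * 2 := by
      rw [h1]; omega
    have h7 := Nat.le_of_mul_le_mul_left h6 (by omega)
    omega
  have h1 := Subgroup.mul_mem_iff_of_index_two hidx (a := (⟨x, hx⟩ : E)) (b := ⟨y, hy⟩)
  simp only [Subgroup.mem_subgroupOf, Subgroup.coe_mul] at h1
  show x * y ∈ P
  rw [h1]
  constructor
  · intro h; exact absurd h hxP
  · intro h; exact absurd h hyP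

/-- If a conjugation acts trivially modulo `z` on `v` and `v'`, it does so on all of `E`. -/
theorem ok_all [Finite G] (X : ExtraAt E z) (hcard : Nat.card E = 8) {s v v' : G} (hs : s * z = z * s)
    (hv : v ∈ E) (hv' : v' ∈ E) (hv1 : v ≠ 1) (hvz : v ≠ z)
    (hv'P : ¬ (v' = 1 ∨ v' = z ∨ v' = v ∨ v' = v * z))
    (h1 : Eqz z (s * v * s⁻¹) v) (h2 : Eqz z (s * v' * s⁻¹) v') :
    ∀ x ∈ E, Eqz z (s * x * s⁻¹) x := by
  have hzc : Eqz z (s * z * s⁻¹) z := Or.inl (conj_eq_of_comm hs)
  have hm : ∀ a b, b ∈ E → Eqz z (s * a * s⁻¹) a → Eqz z (s * b * s⁻¹) b →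
      Eqz z (s * (a * b) * s⁻¹) (a * b) := by
    intro a b hb ha' hb'
    have e : s * (a * b) * s⁻¹ = (s * a * s⁻¹) * (s * b * s⁻¹) := by group
    rw [e]
    exact Eqz.mul X hb ha' hb'
  have hP : ∀ x, (x = 1 ∨ x = z ∨ x = v ∨ x = v * z) → Eqz z (s * x * s⁻¹) x := by
    rintro x (rfl | rfl | rfl | rfl)
    · left; group
    · exact hzc
    · exact h1
    · exact hm _ _ X.mem h1 hzc
  intro x hx
  by_cases hxP : x = 1 ∨ x = z ∨ x = v ∨ x = v * z
  · exact hP x hxP
  · have h3 := pair_mul X hcard hv hv1 hvz hv' hx hv'P hxP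
    have h4 := hP _ h3
    have e : x = v'⁻¹ * (v' * x) := by group
    rw [e]
    refine hm _ _ (E.mul_mem hv' hx) ?_ h4
    have e2 : s * v'⁻¹ * s⁻¹ = (s * v' * s⁻¹)⁻¹ := by group
    rw [e2]
    exact Eqz.inv X hv' h2

/-- The key lemma: `l t * l t = 1` for any `2`-element `t` of `C(z)` when `|E| = 8`. -/
theorem eight_core [Finite G] (hS : Setting E z) (hcard : Nat.card E = 8) {A : Type*} [CommGroup A]
    (l : Hz z →* A) (t₀ : Hz z) (a : ℕ) (ht2 : t₀ ^ (2 ^ a) = 1) : l t₀ * l t₀ = 1 := by
  classical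
  have X := hS.extra
  have hzz := X.sq_eq
  have hmH : ∀ x : G, x * z = z * x → x ∈ Hz z := fun x hx => mem_cent.2 hx
  have hHz : ∀ x ∈ Hz z, x * z = z * x := fun x hx => mem_cent.1 hx
  have hEH : E ≤ Hz z := fun x hx => hmH x (X.cen x hx)
  let L : G → A := fun x => if h : x ∈ Hz z then l ⟨x, h⟩ else 1
  have hLv : ∀ x (h : x ∈ Hz z), L x = l ⟨x, h⟩ := fun x h => dif_pos h
  have hLmul : ∀ x ∈ Hz z, ∀ y ∈ Hz z, L (x * y) = L x * L y := by
    intro x hx y hy
    rw [hLv x hx, hLv y hy, hLv _ ((Hz z).mul_mem hx hy), ← map_mul]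
    rfl
  have hLone : L 1 = 1 := by
    rw [hLv 1 (Hz z).one_mem]
    exact map_one l
  have hLinv : ∀ x ∈ Hz z, L x⁻¹ = (L x)⁻¹ := by
    intro x hx
    apply eq_inv_of_mul_eq_one_left
    rw [← hLmul _ ((Hz z).inv_mem hx) _ hx, inv_mul_cancel, hLone]
  have hLconj : ∀ s ∈ Hz z, ∀ x ∈ Hz z, L (s * x * s⁻¹) = L x := by
    intro s hs x hx
    rw [hLmul _ ((Hz z).mul_mem hs hx) _ ((Hz z).inv_mem hs), hLmul _ hs _ hx, hLinv _ hs]
    simp [mul_comm]
  -- `z` is a commutator
  have hLz : L z = 1 := by
    have hnonab : ∃ x ∈ E, ∃ y ∈ E, x * y ≠ y * x := by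
      by_contra hcon
      push Not at hcon
      have h1 : Nat.card E ≤ [1, z].length := by
        apply card_le_of_list
        intro f hf
        rcases X.central f hf (hcon f hf) with h | h <;> simp [h]
      simp at h1
      omega
    obtain ⟨x, hx, y, hy, hxy⟩ := hnonab
    have h1 : x * y * x⁻¹ * y⁻¹ = z := by
      rcases X.comm x hx y hy with h | h
      · exact absurd (comm_of_conj_eq (mul_inv_eq_one.1 h)) hxy
      · exact h
    have h2 : L (x * y * x⁻¹ * y⁻¹) = 1 := by
      rw [hLmul _ ((Hz z).mul_mem ((Hz z).mul_mem (hEH hx) (hEH hy)) ((Hz z).inv_mem (hEH hx))) _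
        ((Hz z).inv_mem (hEH hy)), hLconj x (hEH hx) y (hEH hy), hLinv _ (hEH hy), mul_inv_cancel]
    rwa [h1] at h2
  have hLE : ∀ x ∈ E, L x * L x = 1 := by
    intro x hx
    rw [← hLmul x (hEH hx) x (hEH hx)]
    have h1 := X.sq x hx
    rw [pow_two] at h1
    rcases h1 with h | h
    · rw [h]; exact hLone
    · rw [h]; exact hLz
  obtain ⟨t, htH⟩ := t₀
  have hG : t ^ (2 ^ a) = 1 := by
    have := congrArg (fun w : Hz z => (w : G)) ht2
    simpa using this
  rw [← hLv t htH]
  by_cases htE : t ∈ E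
  · exact hLE t htE
  have htz : t * z = z * t := hHz t htH
  obtain ⟨v, hv, hvnot⟩ : ∃ v ∈ E, ¬ Eqz z (t * v * t⁻¹) v := by
    by_contra hcon
    push Not at hcon
    exact htE (mem_of_central hS htz hcon)
  have hinj : ∀ x y : G, t * x * t⁻¹ = t * y * t⁻¹ → x = y := fun x y h =>
    mul_left_cancel (mul_right_cancel h)
  have htzc : t * z * t⁻¹ = z := conj_eq_of_comm htz
  have ht1 : t * 1 * t⁻¹ = 1 := by group
  have hv1 : v ≠ 1 := by
    rintro rfl
    exact hvnot (Or.inl ht1)
  have hvz : v ≠ z := by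
    rintro rfl
    exact hvnot (Or.inl htzc)
  obtain ⟨v', hv'def⟩ : ∃ v', v' = t * v * t⁻¹ := ⟨_, rfl⟩
  rw [← hv'def] at hvnot
  have hv'E : v' ∈ E := by rw [hv'def]; exact hS.nQ t htz v hv
  have hv'v : v' ≠ v := fun h => hvnot (Or.inl h)
  have hv'vz : v' ≠ v * z := fun h => hvnot (Or.inr h)
  have hv'1 : v' ≠ 1 := by
    intro h
    apply hv1
    apply hinj
    rw [← hv'def, h, ht1]
  have hv'z : v' ≠ z := by
    intro h
    apply hvz
    apply hinj
    rw [← hv'def, h, htzc]
  have hv'P : ¬ (v' = 1 ∨ v' = z ∨ v' = v ∨ v' = v * z) := by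
    rintro (h | h | h | h)
    exacts [hv'1 h, hv'z h, hv'v h, hv'vz h]
  obtain ⟨w, hwdef⟩ : ∃ w, w = t * v' * t⁻¹ := ⟨_, rfl⟩
  have hwE : w ∈ E := by rw [hwdef]; exact hS.nQ t htz v' hv'E
  have hw1 : w ≠ 1 := by
    intro h
    apply hv'1
    apply hinj
    rw [← hwdef, h, ht1]
  have hw2 : w ≠ z := by
    intro h
    apply hv'z
    apply hinj
    rw [← hwdef, h, htzc]
  have hw3 : w ≠ v' := by
    intro h
    apply hv'v
    apply hinj
    rw [← hwdef, h, hv'def]
  have hw4 : w ≠ v' * z := by
    intro h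
    apply hv'vz
    apply hinj
    have e : t * (v * z) * t⁻¹ = (t * v * t⁻¹) * (t * z * t⁻¹) := by group
    rw [← hwdef, h, e, ← hv'def, htzc]
  have hLvv : L v' = L v := by rw [hv'def]; exact hLconj t htH v (hEH hv)
  by_cases hwP : w = 1 ∨ w = z ∨ w = v ∨ w = v * z
  · -- `t` swaps two cosets
    have hwv : Eqz z w v := by
      rcases hwP with h | h | h | h
      · exact absurd h hw1
      · exact absurd h hw2
      · exact Or.inl h
      · exact Or.inr h
    obtain ⟨r, hrdef⟩ : ∃ r, r = t * t := ⟨_, rfl⟩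
    have hrz : r * z = z * r := by
      rw [hrdef]
      calc t * t * z = t * (t * z) := by group
        _ = t * (z * t) := by rw [htz]
        _ = (t * z) * t := by group
        _ = z * t * t := by rw [htz]
        _ = z * (t * t) := by group
    have hrv : r * v * r⁻¹ = w := by
      rw [hrdef, hwdef, hv'def]; group
    have hrv' : r * v' * r⁻¹ = t * w * t⁻¹ := by
      rw [hrdef, hwdef]; group
    have h1 : Eqz z (r * v * r⁻¹) v := by rw [hrv]; exact hwv
    have h2 : Eqz z (r * v' * r⁻¹) v' := by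
      rw [hrv']
      have := Eqz.conj htz hwv
      rwa [← hv'def] at this
    have hall := ok_all X hcard hrz hv hv'E hv1 hvz hv'P h1 h2
    have hrE : r ∈ E := mem_of_central hS hrz hall
    have hrfix : t * r * t⁻¹ = r := by rw [hrdef]; group
    have hLr : L r = 1 := by
      by_cases hrP : r = 1 ∨ r = z ∨ r = v ∨ r = v * z
      · rcases hrP with h | h | h | h
        · rw [h]; exact hLone
        · rw [h]; exact hLz
        · exfalso
          apply hv'v
          rw [hv'def, ← h]
          exact hrfix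
        · exfalso
          apply hv'v
          have e : t * (v * z) * t⁻¹ = (t * v * t⁻¹) * (t * z * t⁻¹) := by group
          rw [h, e, ← hv'def, htzc] at hrfix
          exact mul_right_cancel hrfix
      · have h3 := pair_mul X hcard hv hv1 hvz hrE hv'E hrP hv'P
        have hab : ∀ c : G, t * c * t⁻¹ = c → r * v' = c → False := by
          intro c hc hrc
          apply hw3
          have e : t * (r * v') * t⁻¹ = (t * r * t⁻¹) * (t * v' * t⁻¹) := by group
          rw [hrc, hc, hrfix, ← hwdef] at e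
          rw [← hrc] at e
          exact (mul_left_cancel e).symm
        have hprod : L r * L v' = L (r * v') := (hLmul r (hEH hrE) v' (hEH hv'E)).symm
        rcases h3 with h | h | h | h
        · exact (hab 1 ht1 h).elim
        · exact (hab z htzc h).elim
        · rw [h, hLvv] at hprod
          exact mul_eq_right.1 hprod
        · rw [h, hLvv, hLmul v (hEH hv) z (hEH X.mem), hLz, mul_one] at hprod
          exact mul_eq_right.1 hprod
    rw [← hLmul t htH t htH, ← hrdef]
    exact hLr
  · -- `t` permutes three cosets: contradiction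
    exfalso
    have h3 := pair_mul X hcard hv hv1 hvz hv'E hwE hv'P hwP
    have hc : Eqz z (v' * w) v := by
      have hinv := Eqz.self_inv X hv'E
      rcases h3 with h | h | h | h
      · exfalso
        have e : w = v'⁻¹ := eq_inv_of_mul_eq_one_right h
        rcases hinv with h4 | h4
        · exact hw3 (e.trans h4)
        · exact hw4 (e.trans h4)
      · exfalso
        have e : w = v'⁻¹ * z := by
          rw [← h]; group
        rcases hinv with h4 | h4
        · rw [h4] at e; exact hw4 e
        · rw [h4, mul_assoc, hzz, mul_one] at e; exact hw3 e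
      · exact Or.inl h
      · exact Or.inr h
    obtain ⟨w', hw'def⟩ : ∃ w', w' = t * w * t⁻¹ := ⟨_, rfl⟩
    have hc2 : Eqz z (w * w') v' := by
      have h4 := Eqz.conj htz hc
      have e : t * (v' * w) * t⁻¹ = (t * v' * t⁻¹) * (t * w * t⁻¹) := by group
      rw [e, ← hwdef, ← hw'def, ← hv'def] at h4
      exact h4
    have hw'v : Eqz z w' v := by
      have e : w' = w⁻¹ * (w * w') := by group
      rw [e]
      refine Eqz.trans X (Eqz.mul X hv'E (Eqz.rfl' _) hc2) ?_
      refine Eqz.trans X (Eqz.mul X hv'E (Eqz.self_inv X hwE) (Eqz.rfl' _)) ?_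
      exact Eqz.trans X (Eqz.comm X hwE hv'E) hc
    obtain ⟨s, hsdef⟩ : ∃ s, s = t * t * t := ⟨_, rfl⟩
    have hsz : s * z = z * s := by
      rw [hsdef]
      calc t * t * t * z = t * t * (t * z) := by group
        _ = t * t * (z * t) := by rw [htz]
        _ = t * (t * z) * t := by group
        _ = t * (z * t) * t := by rw [htz]
        _ = (t * z) * t * t := by group
        _ = z * t * t * t := by rw [htz]
        _ = z * (t * t * t) := by group
    have hsv : s * v * s⁻¹ = w' := by
      rw [hsdef, hw'def, hwdef, hv'def]; group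
    have hsv' : s * v' * s⁻¹ = t * w' * t⁻¹ := by
      rw [hsdef, hw'def, hwdef, hv'def]; group
    have h1 : Eqz z (s * v * s⁻¹) v := by rw [hsv]; exact hw'v
    have h2 : Eqz z (s * v' * s⁻¹) v' := by
      rw [hsv']
      have := Eqz.conj htz hw'v
      rwa [← hv'def] at this
    have hall := ok_all X hcard hsz hv hv'E hv1 hvz hv'P h1 h2
    have hsE : s ∈ E := mem_of_central hS hsz hall
    apply htE
    have hcop : Nat.Coprime 3 (2 ^ a) := Nat.Coprime.pow_right a (by norm_num)
    have hb := Nat.gcd_eq_gcd_ab 3 (2 ^ a)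
    rw [hcop.gcd_eq_one] at hb
    have hs3 : s = t ^ (3 : ℤ) := by
      rw [hsdef]
      simp [zpow_ofNat, pow_succ]
    have e1 : t = s ^ (Nat.gcdA 3 (2 ^ a)) := by
      calc t = t ^ (((Nat.gcd 3 (2 ^ a) : ℕ) : ℤ)) := by rw [hcop.gcd_eq_one]; simp
        _ = t ^ ((3 : ℕ) * Nat.gcdA 3 (2 ^ a) + ((2 ^ a : ℕ) : ℤ) * Nat.gcdB 3 (2 ^ a)) := by
            rw [Nat.gcd_eq_gcd_ab 3 (2 ^ a)]
        _ = (t ^ (3 : ℤ)) ^ (Nat.gcdA 3 (2 ^ a)) * (t ^ (2 ^ a)) ^ (Nat.gcdB 3 (2 ^ a)) := by
            rw [zpow_add, zpow_mul, zpow_mul, zpow_natCast t (2 ^ a), Nat.cast_ofNat]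
        _ = s ^ (Nat.gcdA 3 (2 ^ a)) := by rw [hG, ← hs3]; simp
    rw [e1]
    exact E.zpow_mem hsE _

/-- **The case `|E| = 8`**: elements of `2`-power order of the abelianization are involutions. -/
theorem eight_case [Finite G] (hS : Setting E z) (hcard : Nat.card E = 8)
    (q : Abelianization (Hz z)) (k : ℕ) (hk : orderOf q = 2 ^ k) : q ^ 2 = 1 := by
  classical
  obtain ⟨y, rfl⟩ : ∃ y : Hz z, Abelianization.of y = q := by
    induction q using QuotientGroup.induction_on with
    | H y => exact ⟨y, rfl⟩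
  have ho : orderOf y ≠ 0 := (orderOf_pos y).ne'
  obtain ⟨a, m, hm, hoy⟩ := Nat.exists_eq_two_pow_mul_odd ho
  have h1 : (y ^ m) ^ (2 ^ a) = 1 := by
    rw [← pow_mul, mul_comm, ← hoy, pow_orderOf_eq_one]
  have h2 := eight_core hS hcard Abelianization.of (y ^ m) a h1
  rw [map_pow, ← pow_two, ← pow_mul, ← map_pow] at h2
  rw [map_pow] at h2
  have h3 : orderOf (Abelianization.of y) ∣ m * 2 := orderOf_dvd_of_pow_eq_one h2
  rw [hk] at h3
  have h4 : Nat.Coprime (2 ^ k) m := Nat.Coprime.pow_left k (Nat.coprime_two_left.2 hm)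
  have h5 : 2 ^ k ∣ 2 := h4.dvd_of_dvd_mul_left h3
  rw [← hk] at h5
  exact orderOf_dvd_iff_pow_eq_one.1 h5

end Cfsg.Agent.Lib.BlockEight
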