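import Mathlib
import Cfsg.Agent.Lib.GalAmgm

/-!
# The trace of `2`-power roots of unity

The sum of the embeddings of the cyclotomic field on a `2`-power root of unity.
-/

set_option autoImplicit false

namespace Cfsg.Agent.Lib.GalTrace2

open Cfsg.Agent.Lib.GalAmgm
open scoped ComplexConjugate

/-- A root of unity different from `1, -1`. -/
theorem sum_emb_eq_zero (j : ℕ) [NeZero (2 ^ j)] (x : cycF (2 ^ j)) (hx : (x : ℂ) ^ (2 ^ j) = 1)
    (h1 : (x : ℂ) ≠ 1) (h2 : (x : ℂ) ≠ -1) :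
    ∑ φ : cycF (2 ^ j) →ₐ[ℚ] ℂ, φ x = 0 := by
  classical
  set w : ℂ := (x : ℂ) with hw
  have hord : orderOf w ∣ 2 ^ j := orderOf_dvd_of_pow_eq_one hx
  obtain ⟨m, -, hm⟩ := (Nat.dvd_prime_pow Nat.prime_two).mp hord
  have hprim : IsPrimitiveRoot w (2 ^ m) := by
    rw [← hm]
    exact IsPrimitiveRoot.orderOf w
  have hm0 : m ≠ 0 := by
    rintro rfl
    apply h1
    have := hprim.pow_eq_one
    simpa using this
  obtain ⟨e, rfl⟩ : ∃ e, m = e + 1 := ⟨m - 1, by omega⟩
  have he0 : e ≠ 0 := by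
    rintro rfl
    have h3 : w ^ 2 = 1 := by simpa using hprim.pow_eq_one
    have h4 : (w - 1) * (w + 1) = 0 := by
      ring_nf
      rw [h3]
      ring
    rcases mul_eq_zero.mp h4 with h | h
    · exact h1 (sub_eq_zero.mp h)
    · exact h2 (eq_neg_of_add_eq_zero_left h)
  have h5 : w ^ 2 ^ e = -1 := by
    have h6 : (w ^ 2 ^ e) ^ 2 = 1 := by
      rw [← pow_mul, ← pow_succ]
      exact hprim.pow_eq_one
    have h7 : w ^ 2 ^ e ≠ 1 := by
      intro h
      have h8 := hprim.dvd_of_pow_eq_one _ h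
      have h9 := (Nat.pow_dvd_pow_iff_le_right (by norm_num : 1 < 2)).mp h8
      omega
    have h8 : (w ^ 2 ^ e - 1) * (w ^ 2 ^ e + 1) = 0 := by
      have : (w ^ 2 ^ e - 1) * (w ^ 2 ^ e + 1) = (w ^ 2 ^ e) ^ 2 - 1 := by ring
      rw [this, h6]
      ring
    rcases mul_eq_zero.mp h8 with h | h
    · exact absurd (sub_eq_zero.mp h) h7
    · exact eq_neg_of_add_eq_zero_left h
  have hneg : -w = w ^ (1 + 2 ^ e) := by
    rw [pow_add, pow_one, h5]
    ring
  have hprim2 : IsPrimitiveRoot (-w) (2 ^ (e + 1)) := by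
    rw [hneg]
    apply hprim.pow_of_coprime
    have : Odd (1 + 2 ^ e) := by
      have : Even (2 ^ e) := (Nat.even_pow' he0).mpr even_two
      exact Even.one_add this
    exact Nat.Coprime.pow_right _ (Nat.coprime_two_right.mpr this)
  have hinj : Function.Injective (cycF (2 ^ j)).val := (cycF (2 ^ j)).val.toRingHom.injective
  have hp1 : IsPrimitiveRoot x (2 ^ (e + 1)) :=
    IsPrimitiveRoot.of_map_of_injective (f := (cycF (2 ^ j)).val) hprim hinj
  have hp2 : IsPrimitiveRoot (-x) (2 ^ (e + 1)) :=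
    IsPrimitiveRoot.of_map_of_injective (f := (cycF (2 ^ j)).val) (by simpa using hprim2) hinj
  have hconj : IsConjRoot ℚ x (-x) := by
    rw [isConjRoot_def, ← Polynomial.cyclotomic_eq_minpoly_rat hp1 (by positivity),
      ← Polynomial.cyclotomic_eq_minpoly_rat hp2 (by positivity)]
  obtain ⟨σ, hσ⟩ := isConjRoot_iff_exists_algEquiv.mp hconj
  let e' : (cycF (2 ^ j) →ₐ[ℚ] ℂ) ≃ (cycF (2 ^ j) →ₐ[ℚ] ℂ) :=
    { toFun := fun φ => φ.comp σ.toAlgHom
      invFun := fun φ => φ.comp σ.symm.toAlgHom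
      left_inv := fun φ => by
        ext y
        simp
      right_inv := fun φ => by
        ext y
        simp }
  have h9 : ∑ φ : cycF (2 ^ j) →ₐ[ℚ] ℂ, φ x = - ∑ φ : cycF (2 ^ j) →ₐ[ℚ] ℂ, φ x := by
    conv_lhs => rw [← Equiv.sum_comp e']
    rw [← Finset.sum_neg_distrib]
    refine Finset.sum_congr rfl fun φ _ => ?_
    show φ (σ x) = - φ x
    have hσ' : σ x = -x := by
      have h := map_neg σ (-x)
      rw [neg_neg, hσ] at h
      exact h
    rw [hσ', map_neg]
  have h10 : (2 : ℂ) * ∑ φ : cycF (2 ^ j) →ₐ[ℚ] ℂ, φ x = 0 := by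
    linear_combination h9
  simpa using h10

/-- The value of the normalized trace on a root of unity. -/
noncomputable def eps (z : ℂ) : ℤ := by
  classical exact if z = 1 then 1 else if z = -1 then -1 else 0

theorem eps_one : eps 1 = 1 := by
  simp [eps]

theorem eps_inv {z : ℂ} : eps z⁻¹ = eps z := by
  unfold eps
  by_cases h1 : z = 1
  · simp [h1]
  · have h1' : z⁻¹ ≠ 1 := by
      intro h
      apply h1
      rw [← inv_inv z, h, inv_one]
    by_cases h2 : z = -1
    · subst h2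
      norm_num
    · have h2' : z⁻¹ ≠ -1 := by
        intro h
        apply h2
        rw [← inv_inv z, h]
        norm_num
      simp [h1, h2, h1', h2']

/-- The sum of the embeddings on a root of unity. -/
theorem sum_emb (j : ℕ) [NeZero (2 ^ j)] (x : cycF (2 ^ j)) (hx : (x : ℂ) ^ (2 ^ j) = 1) :
    ∑ φ : cycF (2 ^ j) →ₐ[ℚ] ℂ, φ x =
      (Fintype.card (cycF (2 ^ j) →ₐ[ℚ] ℂ) : ℂ) * (eps (x : ℂ) : ℂ) := by
  by_cases h1 : (x : ℂ) = 1
  · have h2 : x = 1 := Subtype.ext h1
    subst h2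
    simp [eps]
  · by_cases h2 : (x : ℂ) = -1
    · have h3 : x = -1 := Subtype.ext (by simpa using h2)
      subst h3
      simp [eps]
      norm_num
    · rw [sum_emb_eq_zero j x hx h1 h2]
      simp [eps, h1, h2]

end Cfsg.Agent.Lib.GalTrace2
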