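import Mathlib
import Cfsg.Agent.Lib.BlockMajorForm
import Cfsg.Agent.Lib.GalTrace2

/-!
# Height zero characters of `2`-blocks and subsections

The contribution matrix of a subsection is, up to `2 ^ q`, a projection. The mean of the `χ`-th diagonal
entry over the Galois group is an integer, odd if `χ` has height zero.
-/

set_option autoImplicit false
set_option linter.unusedSectionVars false
set_option linter.unusedVariables false
set_option linter.style.haveILetI false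

namespace Cfsg.Agent.Lib.BlockK0Two

open Cfsg Cfsg.Agent.Lib.CharBasic Cfsg.Agent.Lib.CharInd Cfsg.Agent.Lib.CharIntegrality
open Cfsg.Agent.Lib.BlockLocal Cfsg.Agent.Lib.BlockIdem Cfsg.Agent.Lib.BlockQ
open Cfsg.Agent.Lib.BlockOrtho Cfsg.Agent.Lib.BlockVal Cfsg.Agent.Lib.BlockMajor
open Cfsg.Agent.Lib.BlockSubsection Cfsg.Agent.Lib.BlockMajorForm Cfsg.Agent.Lib.GalAmgm
open Cfsg.Agent.Lib.GalTrace2
open scoped ComplexConjugate

universe u

/-- A symmetric integral matrix with zero diagonal has even sum. -/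
theorem two_dvd_sum_of_symm {ι : Type*} [DecidableEq ι] (S : Finset ι) (f : ι → ι → ℤ)
    (hs : ∀ i ∈ S, ∀ j ∈ S, f i j = f j i) (hd : ∀ i ∈ S, f i i = 0) :
    (2 : ℤ) ∣ ∑ i ∈ S, ∑ j ∈ S, f i j := by
  have h1 : ((∑ i ∈ S, ∑ j ∈ S, f i j : ℤ) : ZMod 2) = 0 := by
    push_cast
    rw [← Finset.sum_product']
    refine Finset.sum_involution (fun x _ => (x.2, x.1)) ?_ ?_ ?_ ?_
    · rintro ⟨i, j⟩ hx
      rw [Finset.mem_product] at hx
      simp only
      rw [hs j hx.2 i hx.1, ← Int.cast_add]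
      have h3 : f i j + f i j = 2 * f i j := by ring
      rw [h3]
      push_cast
      have h4 : (2 : ZMod 2) = 0 := rfl
      rw [h4, zero_mul]
    · rintro ⟨i, j⟩ hx hne
      rw [Finset.mem_product] at hx
      simp only [ne_eq, Prod.mk.injEq, not_and]
      intro hji hij
      subst hji
      apply hne
      simp only
      rw [hd j hx.1]
      simp
    · rintro ⟨i, j⟩ hx
      rw [Finset.mem_product] at hx ⊢
      exact ⟨hx.2, hx.1⟩
    · rintro ⟨i, j⟩ hx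
      rfl
  exact (ZMod.intCast_zmod_eq_zero_iff_dvd _ 2).mp h1

section Sect

variable {G : Type u} [Group G] [Fintype G] {p : ℕ} [hpF : Fact p.Prime] {M : Ideal AlgInt}
variable {y : G} {H : Subgroup G} [Fintype H]

/-- The contribution matrix is a multiple of a projection. -/
theorem sum_RR_mul_conj (hM : IsPModular p M) (hy : ∃ k : ℕ, orderOf y = p ^ k)
    (hH : H = Subgroup.centralizer ({y} : Set G)) {b : Set (IrrCharacter H)}
    {B : Set (IrrCharacter G)} (hind : IsInducedBlock M H b B) (χ : IrrCharacter G) :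
    ∑ ψ ∈ bF B, RR p hH b ψ χ * conj (RR p hH b ψ χ) =
      (p : ℂ) ^ blockDefect p b * RR p hH b χ χ := by
  classical
  have hb := hind.1
  set reg := Finset.univ.filter (fun s : H => ¬ p ∣ orderOf s) with hreg
  set c₀ : ℂ := (p : ℂ) ^ blockDefect p b * (Nat.card H : ℂ)⁻¹ with hc₀
  set F := th hH b χ with hF
  have h1 : ∀ ψ, RR p hH b ψ χ = c₀ * ∑ s ∈ reg, th hH b ψ s * conj (F s) := by
    intro ψ
    unfold RR
    rw [classInner_pReg_eq_sum, hc₀, mul_assoc]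
  set Z : IrrCharacter H → ℂ := fun ξ => ∑ ξ' ∈ bF b, conj (vv hH χ ξ') * (Q p b ξ ξ' : ℂ) with hZ
  have h2 : ∀ ξ : IrrCharacter H, Z ξ = c₀ * ∑ s ∈ reg, (ξ : H → ℂ) s * conj (F s) := by
    intro ξ
    have h3 := classInner_pReg_eq_sum (p := p) (ξ : H → ℂ) F
    rw [hc₀, mul_assoc, ← h3]
    have h4 : classInner (pRegularPart p (ξ : H → ℂ)) F =
        ∑ ξ' ∈ bF b, conj (vv hH χ ξ') * classInner (pRegularPart p (ξ : H → ℂ)) (ξ' : H → ℂ) := by
      unfold classInner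
      simp only [hF]
      simp_rw [th_eq hH b χ, map_sum, map_mul, Finset.mul_sum]
      rw [Finset.sum_comm]
      refine Finset.sum_congr rfl fun ξ' _ => Finset.sum_congr rfl fun s _ => ?_
      ring
    rw [h4, Finset.mul_sum]
    simp only [hZ]
    refine Finset.sum_congr rfl fun ξ' hξ' => ?_
    rw [← Q_spec hM hb ξ (mem_bF.mp hξ')]
    ring
  simp_rw [h1]
  rw [sum_norm_expand]
  have h3 : ∀ s ∈ reg, ∀ s' ∈ reg, ∑ ψ ∈ bF B, th hH b ψ s * conj (th hH b ψ s') =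
      ∑ ξ ∈ bF b, (ξ : H → ℂ) s * conj ((ξ : H → ℂ) s') := fun s hs s' hs' =>
    sum_B_th_mul_conj hM hy hH hind (Finset.mem_filter.mp hs).2 (Finset.mem_filter.mp hs').2
  rw [Finset.sum_congr rfl fun s hs => Finset.sum_congr rfl fun s' hs' => by rw [h3 s hs s' hs']]
  rw [← sum_norm_expand (bF b) (fun (ξ : IrrCharacter H) (s : H) => (ξ : H → ℂ) s) F c₀ reg]
  simp_rw [← h2]
  rw [← h1 χ, RR_eq hM hH hb, Finset.mul_sum]
  -- the computation with `Q`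
  have h5 : ∀ ξ ∈ bF b, Z ξ * conj (Z ξ) = ∑ ξ' ∈ bF b, ∑ ξ'' ∈ bF b,
      vv hH χ ξ'' * conj (vv hH χ ξ') * ((Q p b ξ' ξ * Q p b ξ ξ'' : ℤ) : ℂ) := by
    intro ξ hξ
    simp only [hZ]
    rw [map_sum, Finset.sum_mul_sum]
    refine Finset.sum_congr rfl fun ξ' hξ' => Finset.sum_congr rfl fun ξ'' hξ'' => ?_
    rw [map_mul, Complex.conj_conj, map_intCast, Q_symm hM hb (mem_bF.mp hξ) (mem_bF.mp hξ')]
    push_cast
    ring
  rw [Finset.sum_congr rfl h5]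
  have h6 : ∑ ξ ∈ bF b, ∑ ξ' ∈ bF b, ∑ ξ'' ∈ bF b,
      vv hH χ ξ'' * conj (vv hH χ ξ') * ((Q p b ξ' ξ * Q p b ξ ξ'' : ℤ) : ℂ) =
      ∑ ξ'' ∈ bF b, ∑ ξ' ∈ bF b, ∑ ξ ∈ bF b,
      vv hH χ ξ'' * conj (vv hH χ ξ') * ((Q p b ξ' ξ * Q p b ξ ξ'' : ℤ) : ℂ) := by
    rw [Finset.sum_comm]
    rw [Finset.sum_congr rfl fun ξ' _ => Finset.sum_comm]
    rw [Finset.sum_comm]
  rw [h6]
  refine Finset.sum_congr rfl fun ξ'' hξ'' => ?_
  rw [Finset.mul_sum]
  refine Finset.sum_congr rfl fun ξ' hξ' => ?_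
  rw [← Finset.mul_sum, ← Int.cast_sum, sum_Q_mul_Q hM hb (mem_bF.mp hξ') (mem_bF.mp hξ''),
    Q_symm hM hb (mem_bF.mp hξ') (mem_bF.mp hξ'')]
  push_cast
  ring

/-- The contribution is a sum with integer coefficients of roots of unity. -/
theorem RR_self_eq (hM : IsPModular p M) (hH : H = Subgroup.centralizer ({y} : Set G))
    {b : Set (IrrCharacter H)} (hb : IsPBlock M b) (χ : IrrCharacter G) :
    RR p hH b χ χ = ∑ ξ ∈ bF b, ∑ ξ' ∈ bF b,
      (((mult H χ ξ : ℤ) * (mult H χ ξ' : ℤ) * Q p b ξ ξ' : ℤ) : ℂ) * (om hH ξ * conj (om hH ξ')) := by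
  rw [RR_eq hM hH hb]
  refine Finset.sum_congr rfl fun ξ _ => Finset.sum_congr rfl fun ξ' _ => ?_
  rw [conj_vv]
  unfold vv
  push_cast
  ring

end Sect

section Two

variable {G : Type u} [Group G] [Fintype G] {M : Ideal AlgInt}
variable {y : G} {H : Subgroup G} [Fintype H]

/-- The normalized trace of the diagonal entries. -/
noncomputable def tt (hH : H = Subgroup.centralizer ({y} : Set G)) (b : Set (IrrCharacter H))
    (χ : IrrCharacter G) : ℤ :=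
  ∑ ξ ∈ bF b, ∑ ξ' ∈ bF b, (mult H χ ξ : ℤ) * (mult H χ ξ' : ℤ) * Q 2 b ξ ξ' *
    eps (om hH ξ * conj (om hH ξ'))

theorem om_mul_conj (hH : H = Subgroup.centralizer ({y} : Set G)) {j : ℕ} (hn : y ^ 2 ^ j = 1)
    (ξ : IrrCharacter H) : om hH ξ * conj (om hH ξ) = 1 := by
  have h1 := om_pow_eq_one hH ξ hn
  rw [conj_eq_inv_of_pow (pow_ne_zero _ two_ne_zero) h1]
  apply mul_inv_cancel₀
  intro h
  rw [h, zero_pow (pow_ne_zero _ two_ne_zero)] at h1
  exact zero_ne_one h1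

/-- The trace of the diagonal is odd for height zero. -/
theorem odd_tt (hM : IsPModular 2 M) (hH : H = Subgroup.centralizer ({y} : Set G))
    {j : ℕ} (hn : y ^ 2 ^ j = 1) {b : Set (IrrCharacter H)} (hb : IsPBlock M b)
    (χ : IrrCharacter G) (hχ : ¬ MemLocalIdeal M (RR 2 hH b χ χ)) : Odd (tt hH b χ) := by
  classical
  have hMp := hM.2.1.isPrime
  set c : IrrCharacter H → IrrCharacter H → ℤ :=
    fun ξ ξ' => (mult H χ ξ : ℤ) * (mult H χ ξ' : ℤ) * Q 2 b ξ ξ' with hc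
  -- congruence with the sum of the coefficients
  have h1 : MemLocalIdeal M (RR 2 hH b χ χ - ((∑ ξ ∈ bF b, ∑ ξ' ∈ bF b, c ξ ξ' : ℤ) : ℂ)) := by
    rw [RR_self_eq hM hH hb]
    push_cast
    rw [← Finset.sum_sub_distrib]
    refine memLocalIdeal_sum _ _ fun ξ _ => ?_
    rw [← Finset.sum_sub_distrib]
    refine memLocalIdeal_sum _ _ fun ξ' _ => ?_
    have h2 : ∀ z w : ℂ, z ^ 2 ^ j = 1 → w ^ 2 ^ j = 1 → MemLocalIdeal M (z * conj w - 1) := by
      intro z w hz hw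
      have h3 : (z * conj w) ^ 2 ^ j = 1 := by
        rw [mul_pow, ← map_pow, hz, hw, map_one, one_mul]
      exact Cfsg.Agent.Lib.BlockOsima.memLocalIdeal_sub_one_of_pow hM h3
    have h4 := h2 _ _ (om_pow_eq_one hH ξ hn) (om_pow_eq_one hH ξ' hn)
    have h5 : ((mult H χ ξ : ℂ) * (mult H χ ξ' : ℂ) * (Q 2 b ξ ξ' : ℂ)) * (om hH ξ * conj (om hH ξ')) -
        (mult H χ ξ : ℂ) * (mult H χ ξ' : ℂ) * (Q 2 b ξ ξ' : ℂ) =
        ((mult H χ ξ : ℂ) * (mult H χ ξ' : ℂ) * (Q 2 b ξ ξ' : ℂ)) * (om hH ξ * conj (om hH ξ') - 1) := by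
      ring
    simp only [hc]
    push_cast
    rw [h5]
    exact memLocalIdeal_mul_left (memLocalRing_mul (memLocalRing_mul (memLocalRing_natCast _)
      (memLocalRing_natCast _)) (memLocalRing_intCast _)) h4
  have h2 : ¬ MemLocalIdeal M (((∑ ξ ∈ bF b, ∑ ξ' ∈ bF b, c ξ ξ' : ℤ) : ℂ)) := by
    intro h
    apply hχ
    have h3 := memLocalIdeal_add h1 h
    simpa using h3
  have h3 : ¬ ((2 : ℕ) : ℤ) ∣ ∑ ξ ∈ bF b, ∑ ξ' ∈ bF b, c ξ ξ' := by
    rw [← memLocalIdeal_intCast_iff hM]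
    exact h2
  -- the difference is even
  have h4 : (2 : ℤ) ∣ ∑ ξ ∈ bF b, ∑ ξ' ∈ bF b,
      c ξ ξ' * (eps (om hH ξ * conj (om hH ξ')) - 1) := by
    apply two_dvd_sum_of_symm
    · intro ξ hξ ξ' hξ'
      have h5 : c ξ ξ' = c ξ' ξ := by
        simp only [hc]
        rw [Q_symm hM hb (mem_bF.mp hξ) (mem_bF.mp hξ')]
        ring
      have h6 : eps (om hH ξ * conj (om hH ξ')) = eps (om hH ξ' * conj (om hH ξ)) := by
        rw [← eps_inv]
        congr 1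
        have h7 := om_mul_conj hH hn ξ
        have h8 := om_mul_conj hH hn ξ'
        have h9 : (om hH ξ' * conj (om hH ξ)) * (om hH ξ * conj (om hH ξ')) = 1 := by
          calc (om hH ξ' * conj (om hH ξ)) * (om hH ξ * conj (om hH ξ'))
              = (om hH ξ * conj (om hH ξ)) * (om hH ξ' * conj (om hH ξ')) := by ring
            _ = 1 := by rw [h7, h8, one_mul]
        exact (eq_inv_of_mul_eq_one_left h9).symm
      rw [h5, h6]
    · intro ξ _
      rw [om_mul_conj hH hn, eps_one]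
      simp
  have h5 : tt hH b χ = (∑ ξ ∈ bF b, ∑ ξ' ∈ bF b, c ξ ξ') +
      ∑ ξ ∈ bF b, ∑ ξ' ∈ bF b, c ξ ξ' * (eps (om hH ξ * conj (om hH ξ')) - 1) := by
    unfold tt
    rw [← Finset.sum_add_distrib]
    refine Finset.sum_congr rfl fun ξ _ => ?_
    rw [← Finset.sum_add_distrib]
    refine Finset.sum_congr rfl fun ξ' _ => ?_
    simp only [hc]
    ring
  obtain ⟨e, he⟩ := h4
  rw [h5, he]
  refine Int.not_even_iff_odd.mp ?_
  intro hev
  apply h3
  obtain ⟨f, hf⟩ := hev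
  exact ⟨f - e, by push_cast; linarith⟩

/-- The lift of the contribution to the field. -/
noncomputable def rr (hM : IsPModular 2 M) (hH : H = Subgroup.centralizer ({y} : Set G))
    {j : ℕ} (hn : y ^ 2 ^ j = 1) {b : Set (IrrCharacter H)} (hb : IsPBlock M b)
    (χ ψ : IrrCharacter G) : cycF (2 ^ j) :=
  ⟨RR 2 hH b χ ψ, RR_mem_cycF hM hH hb χ ψ hn⟩

/-- The trace formula for the diagonal entries. -/
theorem sum_emb_rr (hM : IsPModular 2 M) (hH : H = Subgroup.centralizer ({y} : Set G))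
    {j : ℕ} [NeZero (2 ^ j)] (hn : y ^ 2 ^ j = 1) {b : Set (IrrCharacter H)} (hb : IsPBlock M b)
    (χ : IrrCharacter G) :
    ∑ φ : cycF (2 ^ j) →ₐ[ℚ] ℂ, φ (rr hM hH hn hb χ χ) =
      (Fintype.card (cycF (2 ^ j) →ₐ[ℚ] ℂ) : ℂ) * (tt hH b χ : ℂ) := by
  classical
  have hroot : ∀ ξ ξ' : IrrCharacter H, (om hH ξ * conj (om hH ξ')) ^ 2 ^ j = 1 := by
    intro ξ ξ'
    rw [mul_pow, ← map_pow, om_pow_eq_one hH ξ hn, om_pow_eq_one hH ξ' hn, map_one, one_mul]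
  let x : IrrCharacter H → IrrCharacter H → cycF (2 ^ j) := fun ξ ξ' =>
    ⟨om hH ξ * conj (om hH ξ'), mem_cycF_of_pow (hroot ξ ξ')⟩
  have h1 : rr hM hH hn hb χ χ = ∑ ξ ∈ bF b, ∑ ξ' ∈ bF b,
      (((mult H χ ξ : ℤ) * (mult H χ ξ' : ℤ) * Q 2 b ξ ξ' : ℤ) : cycF (2 ^ j)) * x ξ ξ' := by
    apply Subtype.ext
    show RR 2 hH b χ χ = _
    rw [RR_self_eq hM hH hb]
    push_cast
    rfl
  rw [h1]
  simp_rw [map_sum, map_mul, map_intCast]
  rw [Finset.sum_comm]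
  unfold tt
  push_cast
  rw [Finset.mul_sum]
  refine Finset.sum_congr rfl fun ξ _ => ?_
  rw [Finset.sum_comm, Finset.mul_sum]
  refine Finset.sum_congr rfl fun ξ' _ => ?_
  rw [← Finset.mul_sum, sum_emb j (x ξ ξ') (hroot ξ ξ')]
  ring

/-- **Main inequality**: the traces of the diagonal are odd integers, large, with a fixed sum. -/
theorem main_tt (hM : IsPModular 2 M) (hy : ∃ k : ℕ, orderOf y = 2 ^ k)
    (hH : H = Subgroup.centralizer ({y} : Set G)) {b : Set (IrrCharacter H)}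
    {B : Set (IrrCharacter G)} (hind : IsInducedBlock M H b B) :
    (∑ χ ∈ bF B, tt hH b χ = (blockRank 2 b : ℤ) * 2 ^ blockDefect 2 b) ∧
    (∀ χ ∈ bF B, 0 ≤ tt hH b χ) ∧
    (∀ χ ∈ bF B, (charDegree (χ : G → ℂ)).factorization 2 = minExp 2 B → Odd (tt hH b χ) ∧
      (((bF B).filter fun ψ : IrrCharacter G => (charDegree (ψ : G → ℂ)).factorization 2 = minExp 2 B).card : ℤ) ≤
        2 ^ blockDefect 2 b * tt hH b χ) := by
  classical
  have hMp := hM.2.1.isPrime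
  have hb := hind.1
  obtain ⟨j, hj⟩ := id hy
  have hn : y ^ 2 ^ j = 1 := by rw [← hj]; exact pow_orderOf_eq_one y
  have hn0 : 2 ^ j ≠ 0 := pow_ne_zero _ two_ne_zero
  haveI : NeZero (2 ^ j) := ⟨hn0⟩
  set r := rr hM hH hn hb with hr
  set C : ℕ := Fintype.card (cycF (2 ^ j) →ₐ[ℚ] ℂ) with hC
  have hC0 : 0 < C := by
    have : Nonempty (cycF (2 ^ j) →ₐ[ℚ] ℂ) := ⟨(cycF (2 ^ j)).val⟩
    exact Fintype.card_pos
  have hC0R : (C : ℝ) ≠ 0 := by exact_mod_cast hC0.ne'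
  have hC0C : (C : ℂ) ≠ 0 := by exact_mod_cast hC0.ne'
  set N : ℕ := 2 ^ blockDefect 2 b with hN
  have hN0 : 0 < N := by positivity
  have hNcast : ((N : ℕ) : ℂ) = ((2 : ℕ) : ℂ) ^ blockDefect 2 b := by
    rw [hN]
    push_cast
    rfl
  -- (a) the projection identity in the field
  have ha : ∀ (χ : IrrCharacter G) (φ : cycF (2 ^ j) →ₐ[ℚ] ℂ),
      ∑ ψ ∈ bF B, ((‖φ (r ψ χ)‖ ^ 2 : ℝ) : ℂ) = (N : ℂ) * φ (r χ χ) := by
    intro χ φ
    have h1 : ∑ ψ ∈ bF B, r ψ χ * conjF (2 ^ j) (r ψ χ) = (N : cycF (2 ^ j)) * r χ χ := by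
      apply Subtype.ext
      push_cast
      simp only [coe_conjF]
      have := sum_RR_mul_conj hM hy hH hind χ
      rw [hNcast.symm] at this
      exact this
    have h2 := congrArg φ h1
    rw [map_sum, map_mul, map_natCast] at h2
    rw [← h2]
    refine Finset.sum_congr rfl fun ψ _ => ?_
    rw [map_mul, emb_conjF, Complex.mul_conj, Complex.normSq_eq_norm_sq]
  -- real form of the trace
  have hsumφ : ∀ χ : IrrCharacter G, ∑ φ : cycF (2 ^ j) →ₐ[ℚ] ℂ, ∑ ψ ∈ bF B, ‖φ (r ψ χ)‖ ^ 2 =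
      (N : ℝ) * (C : ℝ) * (tt hH b χ : ℝ) := by
    intro χ
    have h1 : ((∑ φ : cycF (2 ^ j) →ₐ[ℚ] ℂ, ∑ ψ ∈ bF B, ‖φ (r ψ χ)‖ ^ 2 : ℝ) : ℂ) =
        (((N : ℝ) * (C : ℝ) * (tt hH b χ : ℝ) : ℝ) : ℂ) := by
      push_cast
      have h2 : ∀ φ : cycF (2 ^ j) →ₐ[ℚ] ℂ, ∑ ψ ∈ bF B, ((‖φ (r ψ χ)‖ : ℂ)) ^ 2 = (N : ℂ) * φ (r χ χ) := by
        intro φ
        rw [← ha χ φ]
        push_cast
        rfl
      rw [Finset.sum_congr rfl fun φ _ => h2 φ, ← Finset.mul_sum, sum_emb_rr hM hH hn hb χ]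
      ring
    exact Complex.ofReal_injective h1
  refine ⟨?_, ?_, ?_⟩
  · -- the sum
    have h1 : ∑ χ ∈ bF B, r χ χ = ((blockRank 2 b * N : ℕ) : cycF (2 ^ j)) := by
      apply Subtype.ext
      push_cast
      have := sum_RR_self hM hy hH hind
      rw [hN]
      push_cast at this ⊢
      exact this
    have h2 : ∑ φ : cycF (2 ^ j) →ₐ[ℚ] ℂ, ∑ χ ∈ bF B, φ (r χ χ) =
        (C : ℂ) * ((blockRank 2 b * N : ℕ) : ℂ) := by
      have h3 : ∀ φ : cycF (2 ^ j) →ₐ[ℚ] ℂ, ∑ χ ∈ bF B, φ (r χ χ) = ((blockRank 2 b * N : ℕ) : ℂ) := by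
        intro φ
        rw [← map_sum, h1, map_natCast]
      rw [Finset.sum_congr rfl fun φ _ => h3 φ, Finset.sum_const, Finset.card_univ, nsmul_eq_mul]
    rw [Finset.sum_comm] at h2
    rw [Finset.sum_congr rfl fun χ _ => sum_emb_rr hM hH hn hb χ, ← Finset.mul_sum] at h2
    have h3 := mul_left_cancel₀ hC0C h2
    have h4 : ((∑ χ ∈ bF B, tt hH b χ : ℤ) : ℂ) = (((blockRank 2 b : ℤ) * 2 ^ blockDefect 2 b : ℤ) : ℂ) := by
      push_cast at h3 ⊢
      rw [h3, hN]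
      push_cast
      rfl
    exact_mod_cast h4
  · -- non-negativity
    intro χ _
    have h1 := hsumφ χ
    have h2 : (0 : ℝ) ≤ (N : ℝ) * (C : ℝ) * (tt hH b χ : ℝ) := by
      rw [← h1]
      positivity
    have h3 : (0 : ℝ) < (N : ℝ) * (C : ℝ) := by
      have : (0 : ℝ) < N := by exact_mod_cast hN0
      have : (0 : ℝ) < C := by exact_mod_cast hC0
      positivity
    have h4 : (0 : ℝ) ≤ (tt hH b χ : ℝ) := nonneg_of_mul_nonneg_right h2 h3
    exact_mod_cast h4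
  · -- the main estimate
    intro χ hχ h0χ
    have hχB := mem_bF.mp hχ
    refine ⟨odd_tt hM hH hn hb χ (not_memLocalIdeal_RR hM hH hy hind hχB hχB h0χ h0χ), ?_⟩
    set F := (bF B).filter fun ψ : IrrCharacter G => (charDegree (ψ : G → ℂ)).factorization 2 = minExp 2 B with hF
    have h1 : ∀ ψ ∈ F, (C : ℝ) ≤ ∑ φ : cycF (2 ^ j) →ₐ[ℚ] ℂ, ‖φ (r ψ χ)‖ ^ 2 := by
      intro ψ hψ
      have hψ' := Finset.mem_filter.mp hψ
      have hψB := mem_bF.mp hψ'.1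
      have hnz := not_memLocalIdeal_RR hM hH hy hind hψB hχB hψ'.2 h0χ
      refine card_le_sum_norm_sq (2 ^ j) (r ψ χ) (isIntegral_RR hM hH hb ψ χ hn0 hn) ?_
      intro h
      apply hnz
      have h2 : RR 2 hH b ψ χ = 0 := congrArg Subtype.val h
      rw [h2]
      exact memLocalIdeal_zero
    have h2 : ((F.card : ℝ)) * (C : ℝ) ≤ (N : ℝ) * (C : ℝ) * (tt hH b χ : ℝ) := by
      rw [← hsumφ χ, Finset.sum_comm]
      calc (F.card : ℝ) * (C : ℝ) = ∑ ψ ∈ F, (C : ℝ) := by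
            rw [Finset.sum_const, nsmul_eq_mul]
        _ ≤ ∑ ψ ∈ F, ∑ φ : cycF (2 ^ j) →ₐ[ℚ] ℂ, ‖φ (r ψ χ)‖ ^ 2 := Finset.sum_le_sum h1
        _ ≤ _ := Finset.sum_le_sum_of_subset_of_nonneg (Finset.filter_subset _ _)
            (fun ψ _ _ => Finset.sum_nonneg fun φ _ => by positivity)
    have h3 : (F.card : ℝ) ≤ (N : ℝ) * (tt hH b χ : ℝ) := by
      have hC1 : (0 : ℝ) < C := by exact_mod_cast hC0
      have h4 : (F.card : ℝ) * (C : ℝ) ≤ ((N : ℝ) * (tt hH b χ : ℝ)) * (C : ℝ) := by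
        calc _ ≤ _ := h2
          _ = _ := by ring
      exact le_of_mul_le_mul_right h4 hC1
    have h4 : ((F.card : ℤ) : ℝ) ≤ (((2 : ℤ) ^ blockDefect 2 b * tt hH b χ : ℤ) : ℝ) := by
      push_cast
      have h5 : (N : ℝ) = (2 : ℝ) ^ blockDefect 2 b := by
        rw [hN]
        push_cast
        rfl
      rw [← h5]
      exact h3
    exact_mod_cast h4

end Two

end Cfsg.Agent.Lib.BlockK0Two
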