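import Mathlib
import Cfsg.Agent.Lib.GalTrace2

/-!
# Totally positive integers of `2`-power cyclotomic fields

* `exists_int_trace`: the normalized trace of an algebraic integer is an integer.
* `eq_one_of_trace`: a totally positive integer of mean `1` is `1`.
-/

set_option autoImplicit false
set_option linter.style.haveILetI false
set_option linter.unusedSectionVars false

namespace Cfsg.Agent.Lib.GalMatrix2

open Cfsg.Agent.Lib.GalAmgm Cfsg.Agent.Lib.GalTrace2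
open scoped ComplexConjugate

variable (j : ℕ)

theorem isCyclotomic : IsCyclotomicExtension {2 ^ j} ℚ (cycF (2 ^ j)) := by
  have h := IntermediateField.isCyclotomicExtension_adjoin_of_exists_isPrimitiveRoot
    ({2 ^ j} : Set ℕ) ℚ ℂ (fun n hn h0 => ⟨Complex.exp (2 * Real.pi * Complex.I / n),
      Complex.isPrimitiveRoot_exp n h0⟩)
  have h2 : {b : ℂ | ∃ n ∈ ({2 ^ j} : Set ℕ), n ≠ 0 ∧ b ^ n = 1} = {z : ℂ | z ^ 2 ^ j = 1} := by
    ext b
    simp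
  rw [h2] at h
  exact h

variable [NeZero (2 ^ j)]

/-- **Integrality of the normalized trace.** -/
theorem exists_int_trace (x : cycF (2 ^ j)) (hx : IsIntegral ℤ (x : ℂ)) :
    ∃ c : ℤ, ∑ φ : cycF (2 ^ j) →ₐ[ℚ] ℂ, φ x =
      (Fintype.card (cycF (2 ^ j) →ₐ[ℚ] ℂ) : ℂ) * (c : ℂ) := by
  classical
  haveI := isCyclotomic j
  have hx' : IsIntegral ℤ x := by
    have : Function.Injective (algebraMap (cycF (2 ^ j)) ℂ) := (algebraMap (cycF (2 ^ j)) ℂ).injective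
    exact (isIntegral_algebraMap_iff this).mp hx
  obtain ⟨ζ, hζ⟩ := IsCyclotomicExtension.exists_isPrimitiveRoot (S := {2 ^ j}) ℚ (cycF (2 ^ j))
    (Set.mem_singleton _) (NeZero.ne _)
  haveI : Fact (Nat.Prime 2) := ⟨Nat.prime_two⟩
  have hcl := IsCyclotomicExtension.Rat.isIntegralClosure_adjoin_singleton_of_prime_pow hζ
  obtain ⟨y, hy⟩ := hcl.isIntegral_iff.mp hx'
  have hmem : x ∈ Algebra.adjoin ℤ ({ζ} : Set (cycF (2 ^ j))) := by
    rw [← hy]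
    exact y.2
  have hmem' : x ∈ Subalgebra.toSubmodule (Algebra.adjoin ℤ ({ζ} : Set (cycF (2 ^ j)))) := hmem
  rw [Algebra.adjoin_eq_span] at hmem'
  clear hmem hy y hx hx'
  induction hmem' using Submodule.span_induction with
  | mem z hz =>
    have hz' : z ∈ Submonoid.closure ({ζ} : Set (cycF (2 ^ j))) := hz
    rw [Submonoid.mem_closure_singleton] at hz'
    obtain ⟨n, rfl⟩ := hz'
    refine ⟨eps (((ζ ^ n : cycF (2 ^ j))) : ℂ), sum_emb j _ ?_⟩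
    have h1 : (ζ : cycF (2 ^ j)) ^ 2 ^ j = 1 := hζ.pow_eq_one
    have h2 : ((ζ ^ n : cycF (2 ^ j)) : cycF (2 ^ j)) ^ 2 ^ j = 1 := by
      rw [← pow_mul, mul_comm, pow_mul, h1, one_pow]
    exact_mod_cast congrArg (Subtype.val) h2
  | zero => exact ⟨0, by simp⟩
  | add a b _ _ ha hb =>
    obtain ⟨c, hc⟩ := ha
    obtain ⟨d, hd⟩ := hb
    refine ⟨c + d, ?_⟩
    simp_rw [map_add]
    rw [Finset.sum_add_distrib, hc, hd]
    push_cast
    ring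
  | smul z a _ ha =>
    obtain ⟨c, hc⟩ := ha
    refine ⟨z * c, ?_⟩
    have h1 : ∀ φ : cycF (2 ^ j) →ₐ[ℚ] ℂ, φ (z • a) = (z : ℂ) * φ a := by
      intro φ
      rw [zsmul_eq_mul, map_mul, map_intCast]
    simp_rw [h1]
    rw [← Finset.mul_sum, hc]
    push_cast
    ring

/-- A totally positive integer of mean one is one. -/
theorem eq_one_of_trace (x : cycF (2 ^ j)) (hx : IsIntegral ℤ (x : ℂ)) (hx0 : x ≠ 0)
    (a : (cycF (2 ^ j) →ₐ[ℚ] ℂ) → ℝ) (ha : ∀ φ, φ x = (a φ : ℂ)) (hpos : ∀ φ, 0 ≤ a φ)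
    (hsum : ∑ φ, a φ = (Fintype.card (cycF (2 ^ j) →ₐ[ℚ] ℂ) : ℝ)) : x = 1 := by
  classical
  have hint' : IsIntegral ℤ x := by
    have : Function.Injective (algebraMap (cycF (2 ^ j)) ℂ) := (algebraMap (cycF (2 ^ j)) ℂ).injective
    exact (isIntegral_algebraMap_iff this).mp hx
  have hnormint : IsIntegral ℤ (Algebra.norm ℚ x) := Algebra.isIntegral_norm ℚ hint'
  obtain ⟨z, hz⟩ := IsIntegrallyClosed.isIntegral_iff.mp hnormint
  have hz0 : z ≠ 0 := by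
    intro h0
    have h1 : Algebra.norm ℚ x ≠ 0 := (Algebra.norm_ne_zero_iff).mpr hx0
    apply h1
    rw [← hz, h0]
    simp
  have hprod : ∏ φ : cycF (2 ^ j) →ₐ[ℚ] ℂ, φ x = (z : ℂ) := by
    rw [← Algebra.norm_eq_prod_embeddings ℚ ℂ x, ← hz]
    simp
  have hne : ∀ φ : cycF (2 ^ j) →ₐ[ℚ] ℂ, a φ ≠ 0 := by
    intro φ h
    have h2 := ha φ
    rw [h] at h2
    apply hx0
    have h3 : φ x = 0 := by simpa using h2
    simpa using h3
  have hpos' : ∀ φ, 0 < a φ := fun φ => lt_of_le_of_ne (hpos φ) (hne φ).symm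
  have hprodR : (1 : ℝ) ≤ ∏ φ, a φ := by
    have h1 : ((∏ φ, a φ : ℝ) : ℂ) = (z : ℂ) := by
      push_cast
      rw [← hprod]
      exact Finset.prod_congr rfl fun φ _ => (ha φ).symm
    have h2 : (∏ φ, a φ : ℝ) = (z : ℝ) := by exact_mod_cast h1
    have h3 : (0 : ℝ) < ∏ φ, a φ := Finset.prod_pos fun φ _ => hpos' φ
    rw [h2] at h3 ⊢
    have h4 : 0 < z := by exact_mod_cast h3
    exact_mod_cast h4
  -- the log inequality
  have hlog : ∑ φ, Real.log (a φ) = Real.log (∏ φ, a φ) :=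
    (Real.log_prod (fun φ _ => (hpos' φ).ne')).symm
  have h5 : 0 ≤ ∑ φ, Real.log (a φ) := by
    rw [hlog]
    exact Real.log_nonneg hprodR
  have h6 : ∑ φ, (a φ - 1 - Real.log (a φ)) = - ∑ φ, Real.log (a φ) := by
    rw [Finset.sum_sub_distrib, Finset.sum_sub_distrib, hsum]
    simp
  have h7 : ∀ φ ∈ (Finset.univ : Finset (cycF (2 ^ j) →ₐ[ℚ] ℂ)), 0 ≤ a φ - 1 - Real.log (a φ) := by
    intro φ _
    have := Real.log_le_sub_one_of_pos (hpos' φ)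
    linarith
  have h8 : ∑ φ, (a φ - 1 - Real.log (a φ)) = 0 := by
    have := Finset.sum_nonneg h7
    linarith
  rw [Finset.sum_eq_zero_iff_of_nonneg h7] at h8
  set φ₀ : cycF (2 ^ j) →ₐ[ℚ] ℂ := (cycF (2 ^ j)).val with hφ₀
  have h9 : a φ₀ = 1 := by
    by_contra hne1
    have h10 := Real.log_lt_sub_one_of_pos (hpos' φ₀) hne1
    have h11 := h8 φ₀ (Finset.mem_univ _)
    linarith
  apply Subtype.ext
  have h10 := ha φ₀
  rw [h9] at h10
  have h11 : (x : ℂ) = ((1 : ℝ) : ℂ) := h10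
  rw [h11]
  simp

section Matrix

variable {ι : Type*} [DecidableEq ι]

/-- A matrix over the cyclotomic field, which is a multiple of a Hermitian projection. -/
structure MatData (S : Finset ι) (r : ι → ι → cycF (2 ^ j)) (N l : ℕ) (h : ι → ℕ) : Prop where
  hN : 0 < N
  proj : ∀ χ ∈ S, ∑ ψ ∈ S, r ψ χ * conjF (2 ^ j) (r ψ χ) = (N : cycF (2 ^ j)) * r χ χ
  tr : ∑ χ ∈ S, r χ χ = ((l * N : ℕ) : cycF (2 ^ j))
  herm : ∀ ψ ∈ S, ∀ χ ∈ S, r χ ψ = conjF (2 ^ j) (r ψ χ)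
  int : ∀ ψ ∈ S, ∀ χ ∈ S, IsIntegral ℤ ((r ψ χ : ℂ) / 2 ^ h ψ)
  nz : ∀ ψ ∈ S, ∀ χ ∈ S, h χ = 0 → r ψ χ ≠ 0
  h0 : ∃ χ ∈ S, h χ = 0

variable {j}
variable {S : Finset ι} {r : ι → ι → cycF (2 ^ j)} {N l : ℕ} {h : ι → ℕ}

local notation "C" => (Fintype.card (cycF (2 ^ j) →ₐ[ℚ] ℂ))

theorem card_emb_pos : 0 < C := by
  have : Nonempty (cycF (2 ^ j) →ₐ[ℚ] ℂ) := ⟨(cycF (2 ^ j)).val⟩
  exact Fintype.card_pos

theorem MatData.int' (D : MatData j S r N l h) {ψ χ : ι} (hψ : ψ ∈ S) (hχ : χ ∈ S) :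
    IsIntegral ℤ ((r ψ χ : cycF (2 ^ j)) : ℂ) := by
  have h1 := D.int ψ hψ χ hχ
  have h2 : (((r ψ χ : cycF (2 ^ j)) : ℂ)) = (2 ^ h ψ : ℕ) * (((r ψ χ : cycF (2 ^ j)) : ℂ) / 2 ^ h ψ) := by
    push_cast
    field_simp
  rw [h2]
  exact IsIntegral.mul (isIntegral_natCast _) h1

/-- The norm identity at an embedding. -/
theorem MatData.sum_norm (D : MatData j S r N l h) (φ : cycF (2 ^ j) →ₐ[ℚ] ℂ) {χ : ι} (hχ : χ ∈ S) :
    ∑ ψ ∈ S, ((‖φ (r ψ χ)‖ ^ 2 : ℝ) : ℂ) = (N : ℂ) * φ (r χ χ) := by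
  have h2 := congrArg φ (D.proj χ hχ)
  rw [map_sum, map_mul, map_natCast] at h2
  rw [← h2]
  refine Finset.sum_congr rfl fun ψ _ => ?_
  rw [map_mul, emb_conjF, Complex.mul_conj, Complex.normSq_eq_norm_sq]

/-- The diagonal entries, as real numbers. -/
noncomputable def dg (r : ι → ι → cycF (2 ^ j)) (S : Finset ι) (N : ℕ) (φ : cycF (2 ^ j) →ₐ[ℚ] ℂ)
    (χ : ι) : ℝ := (∑ ψ ∈ S, ‖φ (r ψ χ)‖ ^ 2) / N

theorem MatData.dg_spec (D : MatData j S r N l h) (φ : cycF (2 ^ j) →ₐ[ℚ] ℂ) {χ : ι} (hχ : χ ∈ S) :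
    φ (r χ χ) = (dg r S N φ χ : ℂ) := by
  have h1 := D.sum_norm φ hχ
  have hN0 : (N : ℂ) ≠ 0 := by exact_mod_cast D.hN.ne'
  unfold dg
  push_cast at h1 ⊢
  rw [h1]
  field_simp

theorem dg_nonneg (φ : cycF (2 ^ j) →ₐ[ℚ] ℂ) (χ : ι) : 0 ≤ dg r S N φ χ := by
  unfold dg
  positivity

/-- The trace of the diagonal entries in terms of `dg`. -/
theorem MatData.sum_dg (D : MatData j S r N l h) {χ : ι} (hχ : χ ∈ S) (m : ℤ)
    (hm : ∑ φ : cycF (2 ^ j) →ₐ[ℚ] ℂ, φ (r χ χ) = (C : ℂ) * (m : ℂ)) :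
    ∑ φ : cycF (2 ^ j) →ₐ[ℚ] ℂ, dg r S N φ χ = (C : ℝ) * (m : ℝ) := by
  have h1 : ((∑ φ : cycF (2 ^ j) →ₐ[ℚ] ℂ, dg r S N φ χ : ℝ) : ℂ) = (((C : ℝ) * (m : ℝ) : ℝ) : ℂ) := by
    push_cast
    rw [← hm]
    exact Finset.sum_congr rfl fun φ _ => (D.dg_spec φ hχ).symm
  exact Complex.ofReal_injective h1

/-- Non-negativity. -/
theorem MatData.m_nonneg (D : MatData j S r N l h) {χ : ι} (hχ : χ ∈ S) (m : ℤ)
    (hm : ∑ φ : cycF (2 ^ j) →ₐ[ℚ] ℂ, φ (r χ χ) = (C : ℂ) * (m : ℂ)) : 0 ≤ m := by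
  have h1 := D.sum_dg hχ m hm
  have h2 : (0 : ℝ) ≤ (C : ℝ) * (m : ℝ) := by
    rw [← h1]
    exact Finset.sum_nonneg fun φ _ => dg_nonneg φ χ
  have h3 : (0 : ℝ) < (C : ℝ) := by exact_mod_cast card_emb_pos
  have h4 : (0 : ℝ) ≤ (m : ℝ) := nonneg_of_mul_nonneg_right h2 h3
  exact_mod_cast h4

/-- The sum of the traces. -/
theorem MatData.sum_m (D : MatData j S r N l h) (m : ι → ℤ)
    (hm : ∀ χ ∈ S, ∑ φ : cycF (2 ^ j) →ₐ[ℚ] ℂ, φ (r χ χ) = (C : ℂ) * (m χ : ℂ)) :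
    ∑ χ ∈ S, m χ = (l : ℤ) * N := by
  have h2 : ∑ φ : cycF (2 ^ j) →ₐ[ℚ] ℂ, ∑ χ ∈ S, φ (r χ χ) = (C : ℂ) * ((l * N : ℕ) : ℂ) := by
    have h3 : ∀ φ : cycF (2 ^ j) →ₐ[ℚ] ℂ, ∑ χ ∈ S, φ (r χ χ) = ((l * N : ℕ) : ℂ) := by
      intro φ
      rw [← map_sum, D.tr, map_natCast]
    rw [Finset.sum_congr rfl fun φ _ => h3 φ, Finset.sum_const, Finset.card_univ, nsmul_eq_mul]
  rw [Finset.sum_comm, Finset.sum_congr rfl hm, ← Finset.mul_sum] at h2
  have hC : (C : ℂ) ≠ 0 := by exact_mod_cast card_emb_pos.ne'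
  have h3 := mul_left_cancel₀ hC h2
  exact_mod_cast h3

/-- The lower bound of the sum of the squares of the entries in a column. -/
theorem MatData.pow_le_sum (D : MatData j S r N l h) {ψ χ : ι} (hψ : ψ ∈ S) (hχ : χ ∈ S)
    (hne : r ψ χ ≠ 0) :
    (C : ℝ) * 4 ^ h ψ ≤ ∑ φ : cycF (2 ^ j) →ₐ[ℚ] ℂ, ‖φ (r ψ χ)‖ ^ 2 := by
  set x : cycF (2 ^ j) := r ψ χ / (2 ^ h ψ : ℕ) with hx
  have hpow : ((2 ^ h ψ : ℕ) : cycF (2 ^ j)) ≠ 0 := by
    have : (2 ^ h ψ : ℕ) ≠ 0 := by positivity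
    exact_mod_cast this
  have hx0 : x ≠ 0 := div_ne_zero hne hpow
  have hxc : (x : ℂ) = ((r ψ χ : cycF (2 ^ j)) : ℂ) / 2 ^ h ψ := by
    rw [hx]
    push_cast
    rfl
  have h1 := card_le_sum_norm_sq (2 ^ j) x (by rw [hxc]; exact D.int ψ hψ χ hχ) hx0
  have h2 : ∀ φ : cycF (2 ^ j) →ₐ[ℚ] ℂ, ‖φ (r ψ χ)‖ ^ 2 = ‖φ x‖ ^ 2 * 4 ^ h ψ := by
    intro φ
    have h3 : r ψ χ = x * ((2 ^ h ψ : ℕ) : cycF (2 ^ j)) := by
      rw [hx]
      field_simp
    rw [h3, map_mul, map_natCast, norm_mul, mul_pow, Complex.norm_natCast]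
    congr 1
    push_cast
    rw [← pow_mul, mul_comm, pow_mul]
    norm_num
  simp_rw [h2]
  rw [← Finset.sum_mul]
  have h4 : (0 : ℝ) < 4 ^ h ψ := by positivity
  exact mul_le_mul_of_nonneg_right h1 h4.le

/-- The column bound. -/
theorem MatData.sum_pow_le (D : MatData j S r N l h) {χ : ι} (hχ : χ ∈ S) (h0 : h χ = 0) (m : ℤ)
    (hm : ∑ φ : cycF (2 ^ j) →ₐ[ℚ] ℂ, φ (r χ χ) = (C : ℂ) * (m : ℂ)) :
    ∑ ψ ∈ S, (4 : ℤ) ^ h ψ ≤ N * m := by
  have h1 := D.sum_dg hχ m hm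
  have hC : (0 : ℝ) < C := by exact_mod_cast card_emb_pos
  have hNR : (0 : ℝ) < N := by exact_mod_cast D.hN
  have h2 : ∑ φ : cycF (2 ^ j) →ₐ[ℚ] ℂ, ∑ ψ ∈ S, ‖φ (r ψ χ)‖ ^ 2 = (N : ℝ) * ((C : ℝ) * (m : ℝ)) := by
    rw [← h1, Finset.mul_sum]
    refine Finset.sum_congr rfl fun φ _ => ?_
    unfold dg
    field_simp
  have h3 : ∑ ψ ∈ S, (C : ℝ) * 4 ^ h ψ ≤ (N : ℝ) * ((C : ℝ) * (m : ℝ)) := by
    rw [← h2, Finset.sum_comm]
    exact Finset.sum_le_sum fun ψ hψ => D.pow_le_sum hψ hχ (D.nz ψ hψ χ hχ h0)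
  rw [← Finset.mul_sum] at h3
  have h4 : (C : ℝ) * ∑ ψ ∈ S, (4 : ℝ) ^ h ψ ≤ (C : ℝ) * ((N : ℝ) * (m : ℝ)) := by
    calc _ ≤ _ := h3
      _ = _ := by ring
  have h5 := le_of_mul_le_mul_left h4 hC
  exact_mod_cast h5

theorem MatData.diag_ne_zero (D : MatData j S r N l h) {χ : ι} (hχ : χ ∈ S) : r χ χ ≠ 0 := by
  intro h0
  obtain ⟨χ₀, hχ₀, h00⟩ := D.h0
  -- the column of `χ` vanishes
  let φ₀ : cycF (2 ^ j) →ₐ[ℚ] ℂ := (cycF (2 ^ j)).val
  have h1 := D.sum_norm φ₀ hχ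
  rw [h0, map_zero, mul_zero] at h1
  have h2 : ∑ ψ ∈ S, ‖φ₀ (r ψ χ)‖ ^ 2 = 0 := by
    exact_mod_cast h1
  rw [Finset.sum_eq_zero_iff_of_nonneg (fun ψ _ => by positivity)] at h2
  have h3 := h2 χ₀ hχ₀
  have h4 : r χ₀ χ = 0 := by
    have h5 : φ₀ (r χ₀ χ) = 0 := by simpa using h3
    exact (map_eq_zero φ₀).mp h5
  have h5 := D.nz χ hχ χ₀ hχ₀ h00
  apply h5
  rw [D.herm χ₀ hχ₀ χ hχ, h4, map_zero]

/-- The diagonal traces are divisible by the height power, and they are at least twice as large unless the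
entry is the power itself. -/
theorem MatData.pow_dvd_m (D : MatData j S r N l h) {χ : ι} (hχ : χ ∈ S) (m : ℤ)
    (hm : ∑ φ : cycF (2 ^ j) →ₐ[ℚ] ℂ, φ (r χ χ) = (C : ℂ) * (m : ℂ)) :
    ∃ m' : ℤ, m = 2 ^ h χ * m' ∧ 1 ≤ m' ∧ (m' = 1 → r χ χ = ((2 ^ h χ : ℕ) : cycF (2 ^ j))) := by
  set x : cycF (2 ^ j) := r χ χ / (2 ^ h χ : ℕ) with hx
  have hpow : ((2 ^ h χ : ℕ) : cycF (2 ^ j)) ≠ 0 := by
    have : (2 ^ h χ : ℕ) ≠ 0 := by positivity
    exact_mod_cast this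
  have hx0 : x ≠ 0 := div_ne_zero (D.diag_ne_zero hχ) hpow
  have hxc : (x : ℂ) = ((r χ χ : cycF (2 ^ j)) : ℂ) / 2 ^ h χ := by
    rw [hx]
    push_cast
    rfl
  have hint : IsIntegral ℤ (x : ℂ) := by
    rw [hxc]
    exact D.int χ hχ χ hχ
  have h3 : r χ χ = x * ((2 ^ h χ : ℕ) : cycF (2 ^ j)) := by
    rw [hx]
    field_simp
  obtain ⟨m', hm'⟩ := exists_int_trace j x hint
  have hC : (C : ℂ) ≠ 0 := by exact_mod_cast card_emb_pos.ne'
  have h4 : m = 2 ^ h χ * m' := by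
    have h5 : (C : ℂ) * (m : ℂ) = (C : ℂ) * (((2 ^ h χ * m' : ℤ)) : ℂ) := by
      rw [← hm, h3]
      simp_rw [map_mul, map_natCast]
      rw [← Finset.sum_mul, hm']
      push_cast
      ring
    have h6 := mul_left_cancel₀ hC h5
    exact_mod_cast h6
  -- positivity of the embeddings of `x`
  have hφ : ∀ φ : cycF (2 ^ j) →ₐ[ℚ] ℂ, φ x = ((dg r S N φ χ / 2 ^ h χ : ℝ) : ℂ) := by
    intro φ
    rw [hx, map_div₀, D.dg_spec φ hχ, map_natCast]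
    push_cast
    rfl
  have hsum : ∑ φ : cycF (2 ^ j) →ₐ[ℚ] ℂ, (dg r S N φ χ / 2 ^ h χ) = (C : ℝ) * (m' : ℝ) := by
    have h5 : ((∑ φ : cycF (2 ^ j) →ₐ[ℚ] ℂ, (dg r S N φ χ / 2 ^ h χ) : ℝ) : ℂ) =
        (((C : ℝ) * (m' : ℝ) : ℝ) : ℂ) := by
      push_cast
      rw [← hm']
      refine Finset.sum_congr rfl fun φ _ => ?_
      rw [hφ φ]
      push_cast
      rfl
    exact Complex.ofReal_injective h5
  have hpos : ∀ φ : cycF (2 ^ j) →ₐ[ℚ] ℂ, 0 ≤ dg r S N φ χ / 2 ^ h χ := fun φ =>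
    div_nonneg (dg_nonneg φ χ) (by positivity)
  refine ⟨m', h4, ?_, ?_⟩
  · -- `m' ≥ 1`
    have h5 := card_le_sum_norm_sq (2 ^ j) x hint hx0
    -- `x` is totally positive, and so has trace at least one
    have h6 : (0 : ℝ) ≤ (m' : ℝ) := by
      have h7 : (0 : ℝ) ≤ (C : ℝ) * (m' : ℝ) := by
        rw [← hsum]
        exact Finset.sum_nonneg fun φ _ => hpos φ
      exact nonneg_of_mul_nonneg_right h7 (by exact_mod_cast card_emb_pos)
    have h7 : 0 ≤ m' := by exact_mod_cast h6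
    by_contra hcon
    have h8 : m' = 0 := by omega
    rw [h8] at hsum
    simp only [Int.cast_zero, mul_zero] at hsum
    rw [Finset.sum_eq_zero_iff_of_nonneg (fun φ _ => hpos φ)] at hsum
    let φ₀ : cycF (2 ^ j) →ₐ[ℚ] ℂ := (cycF (2 ^ j)).val
    have h9 := hφ φ₀
    rw [hsum _ (Finset.mem_univ _)] at h9
    apply hx0
    have h10 : φ₀ x = 0 := by simpa using h9
    exact (map_eq_zero φ₀).mp h10
  · intro h5
    have h6 : x = 1 := by
      refine eq_one_of_trace j x hint hx0 (fun φ => dg r S N φ χ / 2 ^ h χ) hφ hpos ?_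
      rw [hsum, h5]
      simp
    rw [h3, h6, one_mul]

/-- **The inequality for a matrix of small trace.** -/
theorem MatData.bound_A (D : MatData j S r N l h)
    (hodd : ∀ χ ∈ S, h χ = 0 → ∀ m : ℤ,
      ∑ φ : cycF (2 ^ j) →ₐ[ℚ] ℂ, φ (r χ χ) = (C : ℂ) * (m : ℂ) → Odd m)
    (hbad : ∀ ψ ∈ S, 1 ≤ h ψ → r ψ ψ ≠ ((2 ^ h ψ : ℕ) : cycF (2 ^ j))) (hl : l ≤ 3) :
    3 * (S.filter fun ψ => h ψ = 0).card + 2 * ∑ ψ ∈ S.filter (fun ψ => 1 ≤ h ψ), 2 ^ h ψ ≤ 3 * N := by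
  classical
  have hex : ∀ χ ∈ S, ∃ c : ℤ, ∑ φ : cycF (2 ^ j) →ₐ[ℚ] ℂ, φ (r χ χ) = (C : ℂ) * (c : ℂ) :=
    fun χ hχ => exists_int_trace j _ (D.int' hχ hχ)
  choose! m hm using hex
  have hsplit : ∀ f : ι → ℤ, ∑ ψ ∈ S, f ψ = ∑ ψ ∈ S.filter (fun ψ => h ψ = 0), f ψ +
      ∑ ψ ∈ S.filter (fun ψ => 1 ≤ h ψ), f ψ := by
    intro f
    rw [← Finset.sum_filter_add_sum_filter_not S (fun ψ => h ψ = 0) f]
    congr 1
    refine Finset.sum_congr ?_ fun _ _ => rfl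
    refine Finset.filter_congr fun ψ _ => ?_
    omega
  set S₀ := S.filter fun ψ => h ψ = 0 with hS₀
  set S₁ := S.filter fun ψ => 1 ≤ h ψ with hS₁
  have hgoal : (3 * (S₀.card : ℤ) + 2 * ∑ ψ ∈ S₁, (2 : ℤ) ^ h ψ) ≤ 3 * N := by
    by_cases hcase : ∃ χ ∈ S, h χ = 0 ∧ m χ = 1
    · obtain ⟨χ, hχ, h0, hm1⟩ := hcase
      have h1 := D.sum_pow_le hχ h0 (m χ) (hm χ hχ)
      rw [hm1, mul_one, hsplit] at h1
      have h2 : ∑ ψ ∈ S₀, (4 : ℤ) ^ h ψ = S₀.card := by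
        rw [Finset.sum_congr rfl (g := fun _ => (1 : ℤ)) (fun ψ hψ => by
          rw [(Finset.mem_filter.mp hψ).2, pow_zero])]
        simp
      have h3 : 2 * ∑ ψ ∈ S₁, (2 : ℤ) ^ h ψ ≤ 3 * ∑ ψ ∈ S₁, (4 : ℤ) ^ h ψ := by
        rw [Finset.mul_sum, Finset.mul_sum]
        refine Finset.sum_le_sum fun ψ _ => ?_
        have h4 : (4 : ℤ) ^ h ψ = 2 ^ h ψ * 2 ^ h ψ := by
          rw [← mul_pow]
          norm_num
        have h5 : (1 : ℤ) ≤ 2 ^ h ψ := one_le_pow₀ (by norm_num)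
        rw [h4]
        nlinarith
      rw [h2] at h1
      linarith
    · push Not at hcase
      have h1 : ∀ χ ∈ S₀, 3 ≤ m χ := by
        intro χ hχ
        obtain ⟨hχS, h0⟩ := Finset.mem_filter.mp hχ
        have h2 := D.m_nonneg hχS (m χ) (hm χ hχS)
        have h3 := hcase χ hχS h0
        obtain ⟨e, he⟩ := hodd χ hχS h0 (m χ) (hm χ hχS)
        omega
      have h2 : ∀ ψ ∈ S₁, 2 * (2 : ℤ) ^ h ψ ≤ m ψ := by
        intro ψ hψ
        obtain ⟨hψS, h1⟩ := Finset.mem_filter.mp hψ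
        obtain ⟨m', hm1, hm2, hm3⟩ := D.pow_dvd_m hψS (m ψ) (hm ψ hψS)
        have h3 : m' ≠ 1 := fun h3 => hbad ψ hψS h1 (hm3 h3)
        have h4 : 2 ≤ m' := by omega
        rw [hm1, mul_comm]
        exact mul_le_mul_of_nonneg_left h4 (by positivity)
      have h3 := D.sum_m m hm
      rw [hsplit] at h3
      have h4 : 3 * (S₀.card : ℤ) ≤ ∑ ψ ∈ S₀, m ψ := by
        have := Finset.card_nsmul_le_sum S₀ m 3 h1
        simp only [nsmul_eq_mul] at this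
        linarith
      have h5 : 2 * ∑ ψ ∈ S₁, (2 : ℤ) ^ h ψ ≤ ∑ ψ ∈ S₁, m ψ := by
        rw [Finset.mul_sum]
        exact Finset.sum_le_sum h2
      have h6 : (l : ℤ) * N ≤ 3 * N := by
        have : (l : ℤ) ≤ 3 := by exact_mod_cast hl
        exact mul_le_mul_of_nonneg_right this (by positivity)
      linarith
  exact_mod_cast hgoal

/-- The diagonal entries are at most `N`. -/
theorem MatData.dg_le (D : MatData j S r N l h) (φ : cycF (2 ^ j) →ₐ[ℚ] ℂ) {χ : ι} (hχ : χ ∈ S) :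
    dg r S N φ χ ≤ N := by
  have h1 := D.dg_spec φ hχ
  have hNR : (0 : ℝ) < N := by exact_mod_cast D.hN
  have h2 : ‖φ (r χ χ)‖ ^ 2 ≤ ∑ ψ ∈ S, ‖φ (r ψ χ)‖ ^ 2 :=
    Finset.single_le_sum (f := fun ψ => ‖φ (r ψ χ)‖ ^ 2) (fun ψ _ => by positivity) hχ
  have h3 : ∑ ψ ∈ S, ‖φ (r ψ χ)‖ ^ 2 = N * dg r S N φ χ := by
    unfold dg
    field_simp
  rw [h1, h3, Complex.norm_real, Real.norm_eq_abs, sq_abs] at h2
  by_contra hcon
  push Not at hcon
  nlinarith [dg_nonneg (r := r) (S := S) (N := N) φ χ]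

/-- The complementary matrix. -/
noncomputable def tm (r : ι → ι → cycF (2 ^ j)) (N : ℕ) (ψ χ : ι) : cycF (2 ^ j) :=
  (if ψ = χ then (N : cycF (2 ^ j)) else 0) - r ψ χ

/-- The norm identity of the complementary matrix. -/
theorem MatData.sum_norm_tm (D : MatData j S r N l h) (φ : cycF (2 ^ j) →ₐ[ℚ] ℂ) {χ : ι} (hχ : χ ∈ S) :
    ∑ ψ ∈ S, ‖φ (tm r N ψ χ)‖ ^ 2 = N * (N - dg r S N φ χ) := by
  have hNR : (0 : ℝ) < N := by exact_mod_cast D.hN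
  set a := dg r S N φ χ with ha
  have h1 : φ (r χ χ) = (a : ℂ) := D.dg_spec φ hχ
  have h2 : ∑ ψ ∈ S, ‖φ (r ψ χ)‖ ^ 2 = N * a := by
    rw [ha]
    unfold dg
    field_simp
  rw [← Finset.add_sum_erase S _ hχ] at h2 ⊢
  have h3 : ∀ ψ ∈ S.erase χ, ‖φ (tm r N ψ χ)‖ ^ 2 = ‖φ (r ψ χ)‖ ^ 2 := by
    intro ψ hψ
    have hne : ψ ≠ χ := (Finset.mem_erase.mp hψ).1
    unfold tm
    rw [if_neg hne, zero_sub, map_neg, norm_neg]
  rw [Finset.sum_congr rfl h3]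
  have h4 : ‖φ (tm r N χ χ)‖ ^ 2 = ((N : ℝ) - a) ^ 2 := by
    unfold tm
    rw [if_pos rfl, map_sub, map_natCast, h1]
    have h5 : ((N : ℂ) - (a : ℂ)) = (((N : ℝ) - a : ℝ) : ℂ) := by
      push_cast
      rfl
    rw [h5, Complex.norm_real, Real.norm_eq_abs, sq_abs]
  rw [h1, Complex.norm_real, Real.norm_eq_abs, sq_abs] at h2
  rw [h4]
  nlinarith

/-- **The dual inequality.** -/
theorem MatData.bound_B (D : MatData j S r N l h) {d : ℕ} (hNd : N = 2 ^ d)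
    (hodd : ∀ χ ∈ S, h χ = 0 → ∀ m : ℤ,
      ∑ φ : cycF (2 ^ j) →ₐ[ℚ] ℂ, φ (r χ χ) = (C : ℂ) * (m : ℂ) → Odd m)
    (hbad : ∀ ψ ∈ S, 1 ≤ h ψ → r ψ ψ + 2 ≠ (N : cycF (2 ^ j))) (hk : S.card ≤ l + 3) :
    S.card ≤ N := by
  classical
  have hex : ∀ χ ∈ S, ∃ c : ℤ, ∑ φ : cycF (2 ^ j) →ₐ[ℚ] ℂ, φ (r χ χ) = (C : ℂ) * (c : ℂ) :=
    fun χ hχ => exists_int_trace j _ (D.int' hχ hχ)
  choose! m hm using hex
  have hCR : (0 : ℝ) < C := by exact_mod_cast card_emb_pos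
  have hNR : (0 : ℝ) < N := by exact_mod_cast D.hN
  obtain ⟨χ₀, hχ₀, h00⟩ := D.h0
  -- `m ≤ N`
  have hmle : ∀ χ ∈ S, m χ ≤ N := by
    intro χ hχ
    have h1 := D.sum_dg hχ (m χ) (hm χ hχ)
    have h2 : ∑ φ : cycF (2 ^ j) →ₐ[ℚ] ℂ, dg r S N φ χ ≤ ∑ φ : cycF (2 ^ j) →ₐ[ℚ] ℂ, (N : ℝ) :=
      Finset.sum_le_sum fun φ _ => D.dg_le φ hχ
    rw [h1, Finset.sum_const, Finset.card_univ, nsmul_eq_mul] at h2
    have h3 := le_of_mul_le_mul_left h2 hCR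
    exact_mod_cast h3
  -- the case of trivial defect
  rcases Nat.eq_zero_or_pos d with hd | hd
  · subst hd
    have hN1 : N = 1 := by simpa using hNd
    have h1 := D.sum_pow_le hχ₀ h00 (m χ₀) (hm χ₀ hχ₀)
    have h2 := hmle χ₀ hχ₀
    have h3 : (S.card : ℤ) ≤ ∑ ψ ∈ S, (4 : ℤ) ^ h ψ := by
      have := Finset.card_nsmul_le_sum S (fun ψ => (4 : ℤ) ^ h ψ) 1 (fun ψ _ => one_le_pow₀ (by norm_num))
      simpa using this
    rw [hN1] at h1 h2 ⊢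
    push_cast at h1 h2
    have : (S.card : ℤ) ≤ 1 := by linarith
    exact_mod_cast this
  have hNeven : (2 : ℤ) ∣ N := by
    rw [hNd]
    push_cast
    exact dvd_pow_self _ hd.ne'
  obtain ⟨N', hN'⟩ := hNeven
  -- the traces of the complementary diagonal
  set τ : ι → ℤ := fun χ => N - m χ with hτ
  have hτ0 : ∀ χ ∈ S, 0 ≤ τ χ := fun χ hχ => by
    have := hmle χ hχ
    simp only [hτ]
    omega
  have hsumτ : ∀ χ ∈ S, ∑ φ : cycF (2 ^ j) →ₐ[ℚ] ℂ, ((N : ℝ) - dg r S N φ χ) = (C : ℝ) * (τ χ : ℝ) := by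
    intro χ hχ
    rw [Finset.sum_sub_distrib, D.sum_dg hχ (m χ) (hm χ hχ), Finset.sum_const, Finset.card_univ,
      nsmul_eq_mul]
    simp only [hτ]
    push_cast
    ring
  have hφ : ∀ χ ∈ S, ∀ φ : cycF (2 ^ j) →ₐ[ℚ] ℂ, φ ((N : cycF (2 ^ j)) - r χ χ) =
      (((N : ℝ) - dg r S N φ χ : ℝ) : ℂ) := by
    intro χ hχ φ
    rw [map_sub, map_natCast, D.dg_spec φ hχ]
    push_cast
    rfl
  have hnn : ∀ χ ∈ S, ∀ φ : cycF (2 ^ j) →ₐ[ℚ] ℂ, 0 ≤ (N : ℝ) - dg r S N φ χ := fun χ hχ φ =>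
    sub_nonneg.mpr (D.dg_le φ hχ)
  have hintx : ∀ χ ∈ S, IsIntegral ℤ (((N : cycF (2 ^ j)) - r χ χ : cycF (2 ^ j)) : ℂ) := by
    intro χ hχ
    push_cast
    exact IsIntegral.sub (isIntegral_natCast _) (D.int' hχ hχ)
  -- `x ≠ 0` unless `τ = 0`
  have hx0 : ∀ χ ∈ S, τ χ ≠ 0 → (N : cycF (2 ^ j)) - r χ χ ≠ 0 := by
    intro χ hχ hτne h0
    apply hτne
    have h1 := hsumτ χ hχ
    have h2 : ∑ φ : cycF (2 ^ j) →ₐ[ℚ] ℂ, ((N : ℝ) - dg r S N φ χ) = 0 := by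
      refine Finset.sum_eq_zero fun φ _ => ?_
      have h3 := hφ χ hχ φ
      rw [h0, map_zero] at h3
      exact_mod_cast h3.symm
    rw [h2] at h1
    have h3 : (τ χ : ℝ) = 0 := by
      rcases mul_eq_zero.mp h1.symm with h | h
      · exact absurd h hCR.ne'
      · exact h
    exact_mod_cast h3
  -- `τ ≠ 0`
  have hτne0 : ∀ χ ∈ S, τ χ ≠ 0 := by
    intro χ hχ h0
    have h1 := hsumτ χ hχ
    rw [h0] at h1
    simp only [Int.cast_zero, mul_zero] at h1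
    rw [Finset.sum_eq_zero_iff_of_nonneg (fun φ _ => hnn χ hχ φ)] at h1
    let φ₀ : cycF (2 ^ j) →ₐ[ℚ] ℂ := (cycF (2 ^ j)).val
    have h2 := D.sum_norm_tm φ₀ hχ
    rw [h1 φ₀ (Finset.mem_univ _), mul_zero] at h2
    rw [Finset.sum_eq_zero_iff_of_nonneg (fun ψ _ => by positivity)] at h2
    -- the column vanishes
    by_cases hχ0 : h χ = 0
    · have h3 := hodd χ hχ hχ0 (m χ) (hm χ hχ)
      have h4 : τ χ = N - m χ := rfl
      obtain ⟨e, he⟩ := h3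
      omega
    · have hne : χ₀ ≠ χ := fun h => hχ0 (h ▸ h00)
      have h3 := h2 χ₀ hχ₀
      have h4 : φ₀ (tm r N χ₀ χ) = 0 := by simpa using h3
      have h5 : tm r N χ₀ χ = 0 := (map_eq_zero φ₀).mp h4
      unfold tm at h5
      rw [if_neg hne, zero_sub, neg_eq_zero] at h5
      apply D.nz χ hχ χ₀ hχ₀ h00
      rw [D.herm χ₀ hχ₀ χ hχ, h5, map_zero]
  -- `τ = 1` implies the result
  by_cases hcase : ∃ χ ∈ S, τ χ = 1
  · obtain ⟨χ, hχ, hτ1⟩ := hcase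
    -- `χ` has height zero
    have hχ0 : h χ = 0 := by
      by_contra hne
      obtain ⟨m', hm1, -, -⟩ := D.pow_dvd_m hχ (m χ) (hm χ hχ)
      obtain ⟨e, he⟩ := Nat.exists_eq_succ_of_ne_zero hne
      have h4 : τ χ = N - m χ := rfl
      rw [hm1, he, pow_succ] at h4
      have h5 : (1 : ℤ) = 2 * (N' - 2 ^ e * m') := by
        rw [← hτ1, h4, hN']
        ring
      omega
    have hx1 : (N : cycF (2 ^ j)) - r χ χ = 1 := by
      refine eq_one_of_trace j _ (hintx χ hχ) (hx0 χ hχ (hτne0 χ hχ))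
        (fun φ => (N : ℝ) - dg r S N φ χ) (hφ χ hχ) (hnn χ hχ) ?_
      rw [hsumτ χ hχ, hτ1]
      simp
    have hdgone : ∀ φ : cycF (2 ^ j) →ₐ[ℚ] ℂ, (N : ℝ) - dg r S N φ χ = 1 := by
      intro φ
      have h1 := hφ χ hχ φ
      rw [hx1, map_one] at h1
      exact_mod_cast h1.symm
    -- apply the mean inequality to the column
    let φ₀ : cycF (2 ^ j) →ₐ[ℚ] ℂ := (cycF (2 ^ j)).val
    have hcol := D.sum_norm_tm φ₀ hχ
    rw [hdgone φ₀, mul_one] at hcol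
    have h1 := card_le_of_sum_mul_conj (2 ^ j) S (fun ψ => ((tm r N ψ χ : cycF (2 ^ j)) : ℂ))
      (fun ψ _ => (tm r N ψ χ).2)
      (fun ψ hψ => by
        unfold tm
        push_cast
        refine IsIntegral.sub ?_ (D.int' hψ hχ)
        split_ifs
        · exact isIntegral_natCast _
        · exact isIntegral_zero)
      (fun ψ hψ h0 => by
        have h2 : tm r N ψ χ = 0 := Subtype.ext h0
        by_cases hne : ψ = χ
        · subst hne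
          unfold tm at h2
          rw [if_pos rfl, hx1] at h2
          exact one_ne_zero h2
        · unfold tm at h2
          rw [if_neg hne, zero_sub, neg_eq_zero] at h2
          exact D.nz ψ hψ χ hχ hχ0 h2)
      (N : ℚ) (by
        have h2 : ((∑ ψ ∈ S, ‖φ₀ (tm r N ψ χ)‖ ^ 2 : ℝ) : ℂ) = ((N : ℝ) : ℂ) := by
          rw [hcol]
        push_cast at h2 ⊢
        rw [← h2]
        refine Finset.sum_congr rfl fun ψ _ => ?_
        rw [Complex.mul_conj, Complex.normSq_eq_norm_sq]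
        push_cast
        rfl)
    have h2 : (S.card : ℝ) ≤ (N : ℝ) := by simpa using h1
    exact_mod_cast h2
  · push Not at hcase
    -- all the complementary traces are at least three
    have hτ3 : ∀ χ ∈ S, 3 ≤ τ χ := by
      intro χ hχ
      have h1 := hτ0 χ hχ
      have h2 := hτne0 χ hχ
      have h3 := hcase χ hχ
      have h4 : τ χ = N - m χ := rfl
      by_cases hχ0 : h χ = 0
      · obtain ⟨e, he⟩ := hodd χ hχ hχ0 (m χ) (hm χ hχ)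
        omega
      · by_contra hcon
        have h5 : τ χ = 2 := by omega
        -- the second bad case
        have hh1 : 1 ≤ h χ := Nat.one_le_iff_ne_zero.mpr hχ0
        apply hbad χ hχ hh1
        -- `x / 2` is one
        set x := (N : cycF (2 ^ j)) - r χ χ with hx
        have hxne : x ≠ 0 := hx0 χ hχ h2
        have htwo : (2 : cycF (2 ^ j)) ≠ 0 := two_ne_zero
        have hy : (x / 2 : cycF (2 ^ j)) = 1 := by
          refine eq_one_of_trace j _ ?_ (div_ne_zero hxne htwo)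
            (fun φ => ((N : ℝ) - dg r S N φ χ) / 2) ?_ (fun φ => div_nonneg (hnn χ hχ φ) (by norm_num)) ?_
          · -- integrality
            have h6 : ((x / 2 : cycF (2 ^ j)) : ℂ) = ((N' : ℤ) : ℂ) -
                ((2 ^ (h χ - 1) : ℕ) : ℂ) * (((r χ χ : cycF (2 ^ j)) : ℂ) / 2 ^ h χ) := by
              have h7 : ((N : ℕ) : ℂ) = 2 * (N' : ℂ) := by exact_mod_cast hN'
              have h8 : (2 : ℂ) ^ h χ = 2 * 2 ^ (h χ - 1) := by
                rw [← pow_succ']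
                congr 1
                omega
              have h9 : ((2 : cycF (2 ^ j)) : ℂ) = 2 := rfl
              simp only [hx]
              push_cast
              rw [h7, h8, h9]
              have : (2 : ℂ) ^ (h χ - 1) ≠ 0 := pow_ne_zero _ two_ne_zero
              field_simp
            rw [h6]
            exact IsIntegral.sub (isIntegral_intCast _)
              (IsIntegral.mul (isIntegral_natCast _) (D.int χ hχ χ hχ))
          · intro φ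
            rw [map_div₀, hφ χ hχ φ]
            have h6 : φ (2 : cycF (2 ^ j)) = 2 := map_ofNat φ 2
            rw [h6]
            push_cast
            rfl
          · rw [← Finset.sum_div, hsumτ χ hχ, h5]
            push_cast
            ring
        have h6 : x = 2 := by
          field_simp at hy
          exact hy
        rw [hx] at h6
        linear_combination -h6
    -- the final count
    have h1 : ∑ χ ∈ S, τ χ = (S.card : ℤ) * N - (l : ℤ) * N := by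
      simp only [hτ]
      rw [Finset.sum_sub_distrib, D.sum_m m hm]
      simp
    have h2 : 3 * (S.card : ℤ) ≤ ∑ χ ∈ S, τ χ := by
      have := Finset.card_nsmul_le_sum S τ 3 hτ3
      simp only [nsmul_eq_mul] at this
      linarith
    have h3 : ((S.card : ℤ) - l) * N ≤ 3 * N := by
      have h4 : ((S.card : ℤ) - l) ≤ 3 := by
        have : (S.card : ℤ) ≤ l + 3 := by exact_mod_cast hk
        linarith
      exact mul_le_mul_of_nonneg_right h4 (by positivity)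
    have h4 : 3 * (S.card : ℤ) ≤ 3 * N := by
      rw [h1] at h2
      linarith
    have h5 : (S.card : ℤ) ≤ N := by linarith
    exact_mod_cast h5

end Matrix

end Cfsg.Agent.Lib.GalMatrix2
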