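import Mathlib
import Cfsg.Agent.Lib.BlockK0Two
import Cfsg.Agent.Lib.GalMatrix2
import Cfsg.Agent.S4710

/-!
# The contribution matrix of a major subsection

For a major subsection `(y, b)` of the block `B`, the contribution `R ψ χ = p ^ d (ψ_y⁰, χ_y)` equals
`p ^ d ψ(1) / |G|` times a central character value at `ψ` of an element of `Z(R G)` depending only on `χ`.
-/

set_option autoImplicit false
set_option linter.unusedSectionVars false
set_option linter.unusedVariables false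
set_option linter.style.haveILetI false

namespace Cfsg.Agent.Lib.BlockMajorR

open Cfsg Cfsg.Agent.Lib.CharBasic Cfsg.Agent.Lib.CharInd Cfsg.Agent.Lib.CharIntegrality
open Cfsg.Agent.Lib.BlockLocal Cfsg.Agent.Lib.BlockIdem Cfsg.Agent.Lib.BlockQ
open Cfsg.Agent.Lib.BlockOrtho Cfsg.Agent.Lib.BlockVal Cfsg.Agent.Lib.BlockMajor
open Cfsg.Agent.Lib.BlockSubsection Cfsg.Agent.Lib.BlockMajorForm Cfsg.Agent.Lib.GalAmgm
open Cfsg.Agent.Lib.GalTrace2 Cfsg.Agent.Lib.BlockK0Two Cfsg.Agent.Lib.GalMatrix2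
open scoped ComplexConjugate

universe u

section Trace

variable {G : Type u} [Group G] [Fintype G]

/-- The trace of a central element in terms of class sums. -/
theorem exists_trace_formula (H : Subgroup G) [Fintype H] (μ : H → ℂ) (hμ : IsClassFunction H μ) :
    ∃ (T : Finset H) (m : H → ℕ), ∀ χ : IrrCharacter G,
      (H.index : ℂ) * (∑ c : H, μ c * (χ : G → ℂ) c) / (χ : G → ℂ) 1 =
        ∑ k ∈ T, μ k * (m k : ℂ) * centralChar (χ : G → ℂ) (k : G) := by
  classical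
  letI : Fintype (ConjClasses H) := Fintype.ofFinite _
  have hm : ∀ k : H, ∃ m : ℕ, (H.index : ℂ) * ((Subgroup.centralizer ({k} : Set H)).index : ℂ) =
      ((Subgroup.centralizer ({(k : G)} : Set G)).index : ℂ) * (m : ℂ) := by
    intro k
    set CH := Subgroup.centralizer ({k} : Set H) with hCH
    set CG := Subgroup.centralizer ({(k : G)} : Set G) with hCG
    have hle : CH.map H.subtype ≤ CG := by
      rintro _ ⟨v, hv, rfl⟩
      have hv' : v ∈ CH := hv
      rw [hCH, Subgroup.mem_centralizer_singleton_iff] at hv'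
      rw [hCG, Subgroup.mem_centralizer_singleton_iff]
      exact congrArg Subtype.val hv'
    have h1 : Nat.card CH ∣ Nat.card CG := by
      rw [← Subgroup.card_map_of_injective H.subtype_injective]
      exact Subgroup.card_dvd_of_le hle
    obtain ⟨m, hm⟩ := h1
    refine ⟨m, ?_⟩
    have h2 : H.index * CH.index * Nat.card CH = CG.index * m * Nat.card CH := by
      have h3 := Subgroup.card_mul_index H
      have h4 := Subgroup.card_mul_index CH
      have h5 := Subgroup.card_mul_index CG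
      rw [hm] at h5
      calc H.index * CH.index * Nat.card CH = H.index * (Nat.card CH * CH.index) := by ring
        _ = Nat.card G := by rw [h4, mul_comm, h3]
        _ = _ := by rw [← h5]; ring
    have h3 : H.index * CH.index = CG.index * m :=
      Nat.eq_of_mul_eq_mul_right Nat.card_pos h2
    exact_mod_cast h3
  choose m hm using hm
  -- the representatives
  let out : ConjClasses H → H := fun K => Quotient.out K
  have hinj : Function.Injective out := by
    intro K K' h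
    have h1 : ∀ K : ConjClasses H, ConjClasses.mk (out K) = K := fun K => Quotient.out_eq K
    rw [← h1 K, ← h1 K', h]
  refine ⟨Finset.univ.image out, m, fun χ => ?_⟩
  rw [Finset.sum_image (fun a _ b _ h => hinj h)]
  have hF : IsClassFunction H (fun c => μ c * (χ : G → ℂ) c) := by
    intro g h
    simp only
    rw [hμ g h]
    have := isClassFunction_of_isCharacter (IsIrrCharacter.isCharacter χ.2) (g : G) (h : G)
    simp only [Subgroup.coe_mul, Subgroup.coe_inv]
    rw [this]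
  rw [sum_eq_sum_conjClasses _ hF, Finset.mul_sum, Finset.sum_div]
  refine Finset.sum_congr rfl fun K _ => ?_
  unfold centralChar
  show (H.index : ℂ) * (((Subgroup.centralizer ({out K} : Set H)).index : ℂ) *
    (μ (out K) * (χ : G → ℂ) (out K))) / (χ : G → ℂ) 1 = _
  have h2 := hm (out K)
  calc (H.index : ℂ) * (((Subgroup.centralizer ({out K} : Set H)).index : ℂ) *
        (μ (out K) * (χ : G → ℂ) (out K))) / (χ : G → ℂ) 1
      = ((H.index : ℂ) * ((Subgroup.centralizer ({out K} : Set H)).index : ℂ)) *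
        (μ (out K) * (χ : G → ℂ) (out K)) / (χ : G → ℂ) 1 := by ring
    _ = _ := by rw [h2]; ring

end Trace

section Sect

variable {G : Type u} [Group G] [Fintype G] {p : ℕ} [hpF : Fact p.Prime] {M : Ideal AlgInt}
variable {y : G} {H : Subgroup G} [Fintype H]

/-- The trace function of a contribution. -/
noncomputable def muR (hH : H = Subgroup.centralizer ({y} : Set G)) (p : ℕ) (b : Set (IrrCharacter H))
    (χ : IrrCharacter G) : H → ℂ :=
  fun c => ∑ ξ' ∈ bF b, conj (vv hH χ ξ') * regInv p (ξ' : H → ℂ) ((yH hH)⁻¹ * c)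

theorem muR_isClassFunction (hH : H = Subgroup.centralizer ({y} : Set G)) (b : Set (IrrCharacter H))
    (χ : IrrCharacter G) : IsClassFunction H (muR hH p b χ) := by
  intro g h
  unfold muR
  refine Finset.sum_congr rfl fun ξ' _ => ?_
  congr 1
  have h1 : (yH hH)⁻¹ * (h * g * h⁻¹) = h * ((yH hH)⁻¹ * g) * h⁻¹ := by
    have h2 : (yH hH)⁻¹ * h = h * (yH hH)⁻¹ := by
      have h3 := yH_central hH h
      rw [inv_mul_eq_iff_eq_mul, ← mul_assoc, h3, mul_assoc, mul_inv_cancel, mul_one]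
    calc (yH hH)⁻¹ * (h * g * h⁻¹) = ((yH hH)⁻¹ * h) * g * h⁻¹ := by group
      _ = (h * (yH hH)⁻¹) * g * h⁻¹ := by rw [h2]
      _ = _ := by group
  rw [h1, regInv_isClassFunction (isClassFunction_of_isCharacter (IsIrrCharacter.isCharacter ξ'.2))]

theorem conj_vv_isIntegral (hH : H = Subgroup.centralizer ({y} : Set G)) (χ : IrrCharacter G)
    (ξ : IrrCharacter H) {n : ℕ} (hn0 : n ≠ 0) (hn : y ^ n = 1) : IsIntegral ℤ (conj (vv hH χ ξ)) := by
  rw [conj_vv]
  exact IsIntegral.mul (isIntegral_natCast _) (isIntegral_of_root hn0 (conj_om_pow hH ξ hn))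

theorem regInv_isIntegral {X : Type u} [Group X] [Fintype X] {ξ : X → ℂ} (hξ : IsCharacter X ξ) (c : X) :
    IsIntegral ℤ (regInv p ξ c) := by
  unfold regInv
  by_cases hc : p ∣ orderOf c⁻¹
  · rw [pRegularPart_of_sing _ hc]
    exact isIntegral_zero
  · rw [pRegularPart_of_reg _ hc]
    exact isIntegral_char hξ _

theorem muR_isIntegral (hH : H = Subgroup.centralizer ({y} : Set G)) (b : Set (IrrCharacter H))
    (χ : IrrCharacter G) {n : ℕ} (hn0 : n ≠ 0) (hn : y ^ n = 1) (c : H) :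
    IsIntegral ℤ (muR hH p b χ c) := by
  unfold muR
  exact IsIntegral.sum _ fun ξ' _ => IsIntegral.mul (conj_vv_isIntegral hH χ ξ' hn0 hn)
    (regInv_isIntegral (IsIrrCharacter.isCharacter ξ'.2) _)

/-- The central element. -/
noncomputable def ccR (hH : H = Subgroup.centralizer ({y} : Set G)) (p : ℕ) (b : Set (IrrCharacter H))
    (χ : IrrCharacter G) : IrrCharacter G → ℂ :=
  fun ψ => (H.index : ℂ) * (∑ c : H, muR hH p b χ c * (ψ : G → ℂ) c) / (ψ : G → ℂ) 1

theorem ccR_mem_Zc [M.IsPrime] (hH : H = Subgroup.centralizer ({y} : Set G)) (b : Set (IrrCharacter H))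
    (χ : IrrCharacter G) {n : ℕ} (hn0 : n ≠ 0) (hn : y ^ n = 1) : ccR hH p b χ ∈ Zc M :=
  trace_mem_Zc H _ (muR_isClassFunction hH b χ)
    (fun c => memLocalRing_of_isIntegral (muR_isIntegral hH b χ hn0 hn c))

theorem ccR_isIntegral (hH : H = Subgroup.centralizer ({y} : Set G)) (b : Set (IrrCharacter H))
    (χ ψ : IrrCharacter G) {n : ℕ} (hn0 : n ≠ 0) (hn : y ^ n = 1) : IsIntegral ℤ (ccR hH p b χ ψ) := by
  obtain ⟨T, m, hT⟩ := exists_trace_formula H (muR hH p b χ) (muR_isClassFunction hH b χ)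
  unfold ccR
  rw [hT ψ]
  exact IsIntegral.sum _ fun k _ => IsIntegral.mul (IsIntegral.mul (muR_isIntegral hH b χ hn0 hn k)
    (isIntegral_natCast _)) (isIntegral_centralChar ψ _)

/-- The inner products with the section function. -/
theorem RR_eq_gg_mul_ccR (hM : IsPModular p M) (hH : H = Subgroup.centralizer ({y} : Set G))
    {b : Set (IrrCharacter H)} (hb : IsPBlock M b) (ψ χ : IrrCharacter G) :
    RR p hH b ψ χ = (p : ℂ) ^ blockDefect p b * (ψ : G → ℂ) 1 / (Nat.card G : ℂ) * ccR hH p b χ ψ := by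
  have h0 : RR p hH b ψ χ = ∑ ξ' ∈ bF b, conj (vv hH χ ξ') * ((p : ℂ) ^ blockDefect p b *
      classInner (pRegularPart p (thetaZ (ψ : G → ℂ) y H)) (ξ' : H → ℂ)) := by
    rw [RR_eq hM hH hb, Finset.sum_comm]
    refine Finset.sum_congr rfl fun ξ' hξ' => ?_
    rw [← sum_vv_mul_Q hM hH hb ψ (mem_bF.mp hξ'), Finset.mul_sum]
    refine Finset.sum_congr rfl fun ξ _ => ?_
    ring
  have hχ := irr_one_ne_zero' ψ.2
  have hG : (Nat.card G : ℂ) ≠ 0 := natCard_ne_zero'
  have hHc : (Nat.card H : ℂ) ≠ 0 := by exact_mod_cast Nat.card_pos.ne'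
  have hidx : (Nat.card G : ℂ) = (Nat.card H : ℂ) * (H.index : ℂ) := by
    rw [← Nat.cast_mul, Subgroup.card_mul_index]
  have hI : (H.index : ℂ) ≠ 0 := by
    intro h
    rw [h, mul_zero] at hidx
    exact hG hidx
  rw [h0]
  simp_rw [classInner_thetaZ_reg hH ψ]
  unfold ccR muR
  set X : ℂ := ∑ ξ' ∈ bF b, ∑ c : H, conj (vv hH χ ξ') * regInv p (ξ' : H → ℂ) ((yH hH)⁻¹ * c) *
    (ψ : G → ℂ) c with hX
  have h1 : ∑ ξ' ∈ bF b, conj (vv hH χ ξ') * ((p : ℂ) ^ blockDefect p b * ((Nat.card H : ℂ)⁻¹ *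
      ∑ c : H, regInv p (ξ' : H → ℂ) ((yH hH)⁻¹ * c) * (ψ : G → ℂ) c)) =
      (p : ℂ) ^ blockDefect p b * (Nat.card H : ℂ)⁻¹ * X := by
    rw [hX, Finset.mul_sum]
    refine Finset.sum_congr rfl fun ξ' _ => ?_
    have h3 : ∑ c : H, conj (vv hH χ ξ') * regInv p (ξ' : H → ℂ) ((yH hH)⁻¹ * c) * (ψ : G → ℂ) c =
        conj (vv hH χ ξ') * ∑ c : H, regInv p (ξ' : H → ℂ) ((yH hH)⁻¹ * c) * (ψ : G → ℂ) c := by
      rw [Finset.mul_sum]
      refine Finset.sum_congr rfl fun c _ => ?_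
      ring
    rw [h3]
    ring
  have h2 : ∑ c : H, (∑ ξ' ∈ bF b, conj (vv hH χ ξ') * regInv p (ξ' : H → ℂ) ((yH hH)⁻¹ * c)) *
      (ψ : G → ℂ) c = X := by
    rw [hX, Finset.sum_comm]
    refine Finset.sum_congr rfl fun c _ => ?_
    rw [Finset.sum_mul]
  rw [h1, h2, hidx]
  field_simp

/-- `RR` is Hermitian. -/
theorem conj_RR (hM : IsPModular p M) (hH : H = Subgroup.centralizer ({y} : Set G))
    {b : Set (IrrCharacter H)} (hb : IsPBlock M b) (ψ χ : IrrCharacter G) :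
    conj (RR p hH b ψ χ) = RR p hH b χ ψ := by
  rw [RR_eq hM hH hb, RR_eq hM hH hb, map_sum, Finset.sum_comm]
  refine Finset.sum_congr rfl fun ξ hξ => ?_
  rw [map_sum]
  refine Finset.sum_congr rfl fun ξ' hξ' => ?_
  rw [map_mul, map_mul, Complex.conj_conj, map_intCast, Q_symm hM hb (mem_bF.mp hξ') (mem_bF.mp hξ)]
  ring

/-- The `p`-part of the factor. -/
theorem exists_factor (hM : IsPModular p M) {B : Set (IrrCharacter G)} (hB : IsPBlock M B)
    {ψ : IrrCharacter G} (hψ : ψ ∈ B) :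
    ∃ a g : ℕ, ¬ p ∣ g ∧ (p : ℂ) ^ blockDefect p B * (ψ : G → ℂ) 1 / (Nat.card G : ℂ) =
      (p : ℂ) ^ blockHeight p B (ψ : G → ℂ) * ((a : ℂ) / (g : ℂ)) := by
  have := hM.2.1.isPrime
  have hp := hM.1
  have hp0 : (p : ℂ) ≠ 0 := by exact_mod_cast hp.ne_zero
  have hG0 : Nat.card G ≠ 0 := Nat.card_pos.ne'
  have hψ0 : charDegree (ψ : G → ℂ) ≠ 0 := Cfsg.Agent.Lib.CharKernel.charDegree_ne_zero ψ.2
  refine ⟨ordCompl[p] (charDegree (ψ : G → ℂ)), ordCompl[p] (Nat.card G),
    Nat.not_dvd_ordCompl hp hG0, ?_⟩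
  have h1 : ((Nat.card G : ℕ) : ℂ) = (p : ℂ) ^ (Nat.card G).factorization p * (ordCompl[p] (Nat.card G) : ℕ) := by
    exact_mod_cast (Nat.ordProj_mul_ordCompl_eq_self (Nat.card G) p).symm
  have h2 : ((charDegree (ψ : G → ℂ) : ℕ) : ℂ) = (p : ℂ) ^ (charDegree (ψ : G → ℂ)).factorization p *
      (ordCompl[p] (charDegree (ψ : G → ℂ)) : ℕ) := by
    exact_mod_cast (Nat.ordProj_mul_ordCompl_eq_self (charDegree (ψ : G → ℂ)) p).symm
  have h3 := card_factorization_eq (M := M) (p := p) hB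
  have h4 := charDegree_factorization_eq (p := p) hψ
  have hg : ((ordCompl[p] (Nat.card G) : ℕ) : ℂ) ≠ 0 := by
    have : ordCompl[p] (Nat.card G) ≠ 0 := (Nat.ordCompl_pos p hG0).ne'
    exact_mod_cast this
  rw [Cfsg.Agent.Lib.CharKernel.one_eq_charDegree (IsIrrCharacter.isCharacter ψ.2), h2, h1, h3, h4, pow_add, pow_add]
  have hp1 : (p : ℂ) ^ blockDefect p B ≠ 0 := pow_ne_zero _ hp0
  have hp2 : (p : ℂ) ^ minExp p B ≠ 0 := pow_ne_zero _ hp0
  field_simp
  ring

/-- Integrality of the contribution divided by the height power. -/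
theorem RR_div_isIntegral (hM : IsPModular p M) (hH : H = Subgroup.centralizer ({y} : Set G))
    {b : Set (IrrCharacter H)} {B : Set (IrrCharacter G)} (hind : IsInducedBlock M H b B)
    (hd : blockDefect p b = blockDefect p B) {n : ℕ} (hn0 : n ≠ 0) (hn : y ^ n = 1)
    {ψ : IrrCharacter G} (hψ : ψ ∈ B) (χ : IrrCharacter G) :
    IsIntegral ℤ (RR p hH b ψ χ / (p : ℂ) ^ blockHeight p B (ψ : G → ℂ)) := by
  have hp := hM.1
  have hp0 : (p : ℂ) ≠ 0 := by exact_mod_cast hp.ne_zero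
  obtain ⟨a, g, hg, hag⟩ := exists_factor hM hind.2.1 hψ
  have hg0 : (g : ℂ) ≠ 0 := by
    intro h
    have : g = 0 := by exact_mod_cast h
    rw [this] at hg
    exact hg (dvd_zero _)
  set h := blockHeight p B (ψ : G → ℂ) with hh
  set x := RR p hH b ψ χ / (p : ℂ) ^ h with hx
  have hph : (p : ℂ) ^ h ≠ 0 := pow_ne_zero _ hp0
  have h1 : (g : ℂ) * x = (a : ℂ) * ccR hH p b χ ψ := by
    rw [hx, RR_eq_gg_mul_ccR hM hH hind.1, hd, hag]
    field_simp
  have h2 : (p : ℂ) ^ h * x = RR p hH b ψ χ := by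
    rw [hx]
    field_simp
  have hint1 : IsIntegral ℤ ((g : ℂ) * x) := by
    rw [h1]
    exact IsIntegral.mul (isIntegral_natCast _) (ccR_isIntegral hH b χ ψ hn0 hn)
  have hint2 : IsIntegral ℤ ((p : ℂ) ^ h * x) := by
    rw [h2]
    exact isIntegral_RR hM hH hind.1 ψ χ hn0 hn
  -- Bezout
  have hcop : IsCoprime (g : ℤ) ((p : ℤ) ^ h) := by
    apply IsCoprime.pow_right
    have : Nat.Coprime g p := ((Nat.Prime.coprime_iff_not_dvd hp).mpr hg).symm
    exact Nat.isCoprime_iff_coprime.mpr this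
  obtain ⟨s, t, hst⟩ := hcop
  have h3 : x = (s : ℂ) * ((g : ℂ) * x) + (t : ℂ) * ((p : ℂ) ^ h * x) := by
    have h4 : (s : ℂ) * (g : ℂ) + (t : ℂ) * (p : ℂ) ^ h = 1 := by exact_mod_cast hst
    linear_combination (-x) * h4
  rw [h3]
  exact IsIntegral.add (IsIntegral.mul (isIntegral_intCast _) hint1)
    (IsIntegral.mul (isIntegral_intCast _) hint2)

/-- Non-vanishing of the contribution. -/
theorem RR_ne_zero (hM : IsPModular p M) (hy : ∃ k : ℕ, orderOf y = p ^ k)
    (hH : H = Subgroup.centralizer ({y} : Set G))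
    {b : Set (IrrCharacter H)} {B : Set (IrrCharacter G)} (hind : IsInducedBlock M H b B)
    (hd : blockDefect p b = blockDefect p B)
    {χ ψ : IrrCharacter G} (hχ : χ ∈ B) (hψ : ψ ∈ B)
    (h0 : (charDegree (χ : G → ℂ)).factorization p = minExp p B) : RR p hH b ψ χ ≠ 0 := by
  have hMp := hM.2.1.isPrime
  have hb := hind.1
  have hB := hind.2.1
  obtain ⟨k, hk⟩ := id hy
  have hn : y ^ (p ^ k) = 1 := by rw [← hk]; exact pow_orderOf_eq_one y
  have hn0 : p ^ k ≠ 0 := pow_ne_zero _ hpF.out.ne_zero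
  have hc := ccR_mem_Zc (M := M) (p := p) hH b χ hn0 hn
  have hu0 : ¬ MemLocalIdeal M (ccR hH p b χ χ) := by
    intro h
    apply not_memLocalIdeal_RR hM hH hy hind hχ hχ h0 h0
    rw [RR_eq_gg_mul_ccR hM hH hb, hd]
    exact memLocalIdeal_mul_left (memLocalRing_gg hM hB hχ) h
  have hsame : SameBlock M (ψ : G → ℂ) (χ : G → ℂ) := by
    have hb0 : B = blockOf M (ψ : G → ℂ) := by
      obtain ⟨ξ, rfl⟩ := hB
      exact (blockOf_eq_of_mem hψ).symm
    rw [hb0] at hχ
    exact hχ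
  have h2 := memLocalIdeal_sub_of_mem_Zc hc hsame
  have hu : ¬ MemLocalIdeal M (ccR hH p b χ ψ) := by
    intro h
    apply hu0
    have h3 := memLocalIdeal_sub h h2
    simpa using h3
  rw [RR_eq_gg_mul_ccR hM hH hb]
  refine mul_ne_zero (gg_ne_zero ψ _) ?_
  intro h
  apply hu
  rw [h]
  exact memLocalIdeal_zero

/-- For a character of positive height the norm is divisible more strongly. -/
theorem memLocalIdeal_RR_self (hM : IsPModular p M) (hH : H = Subgroup.centralizer ({y} : Set G))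
    (hy : ∃ k : ℕ, orderOf y = p ^ k)
    {b : Set (IrrCharacter H)} {B : Set (IrrCharacter G)} (hind : IsInducedBlock M H b B)
    (hd : blockDefect p b = blockDefect p B)
    {ψ : IrrCharacter G} (hψ : ψ ∈ B) (hpos : 1 ≤ blockHeight p B (ψ : G → ℂ)) :
    MemLocalIdeal M (RR p hH b ψ ψ / (p : ℂ) ^ blockHeight p B (ψ : G → ℂ)) := by
  have hMp := hM.2.1.isPrime
  have hb := hind.1
  have hB := hind.2.1
  have hp0 : (p : ℂ) ≠ 0 := by exact_mod_cast hpF.out.ne_zero
  obtain ⟨k, hk⟩ := id hy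
  have hn : y ^ (p ^ k) = 1 := by rw [← hk]; exact pow_orderOf_eq_one y
  have hn0 : p ^ k ≠ 0 := pow_ne_zero _ hpF.out.ne_zero
  obtain ⟨χ₀, hχ₀, h0⟩ := exists_minExp (p := p) hB
  have hh0 : blockHeight p B (χ₀ : G → ℂ) = 0 := by
    have := charDegree_factorization_eq (p := p) hχ₀
    omega
  set h := blockHeight p B (ψ : G → ℂ) with hh
  have hph : (p : ℂ) ^ h ≠ 0 := pow_ne_zero _ hp0
  -- `R χ₀ ψ` lies in the ideal
  have h1 : MemLocalIdeal M (RR p hH b χ₀ ψ) := by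
    have h2 := RR_div_isIntegral hM hH hind hd hn0 hn hψ χ₀
    have h3 : IsIntegral ℤ (conj (RR p hH b ψ χ₀ / (p : ℂ) ^ h)) := by
      have h4 := h2.map (Complex.conjAe.restrictScalars ℤ : ℂ →ₐ[ℤ] ℂ)
      exact h4
    have h4 : RR p hH b χ₀ ψ = (p : ℂ) ^ h * conj (RR p hH b ψ χ₀ / (p : ℂ) ^ h) := by
      rw [← conj_RR hM hH hb ψ χ₀, map_div₀, map_pow, Complex.conj_natCast]
      field_simp
    rw [h4]
    generalize conj (RR p hH b ψ χ₀ / (p : ℂ) ^ h) = w at h3
    obtain ⟨e, he⟩ := Nat.exists_eq_add_of_le hpos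
    have h5 : (p : ℂ) ^ h = (p : ℂ) * (p : ℂ) ^ e := by
      rw [he, pow_add, pow_one]
    rw [h5, mul_assoc]
    exact memLocalIdeal_mul_right ((memLocalIdeal_natCast_iff hM).mpr dvd_rfl)
      (memLocalRing_mul (memLocalRing_pow (memLocalRing_natCast _) _) (memLocalRing_of_isIntegral h3))
  have hc := ccR_mem_Zc (M := M) (p := p) hH b ψ hn0 hn
  have h2 : MemLocalIdeal M (ccR hH p b ψ χ₀) := by
    rw [RR_eq_gg_mul_ccR hM hH hb, hd] at h1
    rcases (memLocalIdeal_mul_iff (memLocalRing_gg hM hB hχ₀)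
      (memLocalRing_of_mem_Zc hc χ₀)).mp h1 with h3 | h3
    · exact absurd h3 (not_memLocalIdeal_gg hM hB hχ₀ h0)
    · exact h3
  have hsame : SameBlock M (ψ : G → ℂ) (χ₀ : G → ℂ) := by
    have hb0 : B = blockOf M (ψ : G → ℂ) := by
      obtain ⟨ξ, rfl⟩ := hB
      exact (blockOf_eq_of_mem hψ).symm
    rw [hb0] at hχ₀
    exact hχ₀
  have h3 : MemLocalIdeal M (ccR hH p b ψ ψ) := by
    have h4 := memLocalIdeal_sub_of_mem_Zc hc hsame
    have h5 := memLocalIdeal_add h4 h2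
    simpa using h5
  obtain ⟨u, hu1, hu2, hu3⟩ := exists_unit_formula hM hB hψ
  rw [← hh] at hu3
  have h4 : RR p hH b ψ ψ / (p : ℂ) ^ h = u * ccR hH p b ψ ψ := by
    rw [RR_eq_gg_mul_ccR hM hH hb, hd, hu3]
    field_simp
  rw [h4]
  exact memLocalIdeal_mul_left hu1 h3

end Sect

section Two

variable {G : Type u} [Group G] [Fintype G] {M : Ideal AlgInt}
variable {y : G} {H : Subgroup G} [Fintype H]

/-- The data of a major subsection. -/
theorem matData (hM : IsPModular 2 M) (hy : ∃ k : ℕ, orderOf y = 2 ^ k)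
    (hH : H = Subgroup.centralizer ({y} : Set G)) {b : Set (IrrCharacter H)}
    {B : Set (IrrCharacter G)} (hind : IsInducedBlock M H b B)
    (hd : blockDefect 2 b = blockDefect 2 B) {j : ℕ} [NeZero (2 ^ j)] (hn : y ^ 2 ^ j = 1) :
    MatData j (bF B) (rr hM hH hn hind.1) (2 ^ blockDefect 2 B) (blockRank 2 b)
      (fun χ => blockHeight 2 B (χ : G → ℂ)) := by
  have hMp := hM.2.1.isPrime
  have hb := hind.1
  have hB := hind.2.1
  have hn0 : 2 ^ j ≠ 0 := NeZero.ne _
  refine ⟨by positivity, ?_, ?_, ?_, ?_, ?_, ?_⟩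
  · intro χ _
    apply Subtype.ext
    have := sum_RR_mul_conj hM hy hH hind χ
    rw [hd] at this
    push_cast
    simp only [coe_conjF]
    push_cast at this
    exact this
  · apply Subtype.ext
    have := sum_RR_self hM hy hH hind
    rw [hd] at this
    push_cast at this ⊢
    exact this
  · intro ψ _ χ _
    apply Subtype.ext
    rw [coe_conjF]
    exact (conj_RR hM hH hb ψ χ).symm
  · intro ψ hψ χ _
    exact RR_div_isIntegral hM hH hind hd hn0 hn (mem_bF.mp hψ) χ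
  · intro ψ hψ χ hχ h0 hzero
    have hχB := mem_bF.mp hχ
    have h1 : (charDegree (χ : G → ℂ)).factorization 2 = minExp 2 B := by
      have := charDegree_factorization_eq (p := 2) hχB
      omega
    exact RR_ne_zero hM hy hH hind hd hχB (mem_bF.mp hψ) h1 (congrArg Subtype.val hzero)
  · obtain ⟨χ₀, hχ₀, h0⟩ := exists_minExp (p := 2) hB
    refine ⟨χ₀, mem_bF.mpr hχ₀, ?_⟩
    have := charDegree_factorization_eq (p := 2) hχ₀
    omega

/-- The oddness of the traces of height zero. -/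
theorem odd_trace (hM : IsPModular 2 M) (hy : ∃ k : ℕ, orderOf y = 2 ^ k)
    (hH : H = Subgroup.centralizer ({y} : Set G)) {b : Set (IrrCharacter H)}
    {B : Set (IrrCharacter G)} (hind : IsInducedBlock M H b B)
    {j : ℕ} [NeZero (2 ^ j)] (hn : y ^ 2 ^ j = 1) :
    ∀ χ ∈ bF B, blockHeight 2 B (χ : G → ℂ) = 0 → ∀ m : ℤ,
      ∑ φ : cycF (2 ^ j) →ₐ[ℚ] ℂ, φ (rr hM hH hn hind.1 χ χ) =
        (Fintype.card (cycF (2 ^ j) →ₐ[ℚ] ℂ) : ℂ) * (m : ℂ) → Odd m := by
  intro χ hχ h0 m hm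
  have hχB := mem_bF.mp hχ
  have h1 : (charDegree (χ : G → ℂ)).factorization 2 = minExp 2 B := by
    have := charDegree_factorization_eq (p := 2) hχB
    omega
  have h2 := sum_emb_rr hM hH hn hind.1 χ
  rw [hm] at h2
  have hC : (Fintype.card (cycF (2 ^ j) →ₐ[ℚ] ℂ) : ℂ) ≠ 0 := by
    exact_mod_cast (card_emb_pos (j := j)).ne'
  have h3 := mul_left_cancel₀ hC h2
  have h4 : m = tt hH b χ := by exact_mod_cast h3
  rw [h4]
  exact odd_tt hM hH hn hind.1 χ (not_memLocalIdeal_RR hM hH hy hind hχB hχB h1 h1)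

/-- **Major subsections at `2`: the inequality of rank three.** -/
theorem main_A (hM : IsPModular 2 M) (hy : ∃ k : ℕ, orderOf y = 2 ^ k)
    (hH : H = Subgroup.centralizer ({y} : Set G)) {b : Set (IrrCharacter H)}
    {B : Set (IrrCharacter G)} (hind : IsInducedBlock M H b B)
    (hd : blockDefect 2 b = blockDefect 2 B) (hl : blockRank 2 b ≤ 3) :
    3 * ((bF B).filter fun ψ : IrrCharacter G => blockHeight 2 B (ψ : G → ℂ) = 0).card +
      2 * ∑ ψ ∈ (bF B).filter (fun ψ : IrrCharacter G => 1 ≤ blockHeight 2 B (ψ : G → ℂ)),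
        2 ^ blockHeight 2 B (ψ : G → ℂ) ≤ 3 * 2 ^ blockDefect 2 B := by
  classical
  have hMp := hM.2.1.isPrime
  obtain ⟨j, hj⟩ := id hy
  have hn : y ^ 2 ^ j = 1 := by rw [← hj]; exact pow_orderOf_eq_one y
  haveI : NeZero (2 ^ j) := ⟨pow_ne_zero _ two_ne_zero⟩
  have D := matData hM hy hH hind hd hn
  refine D.bound_A (odd_trace hM hy hH hind hn) ?_ hl
  intro ψ hψ hpos h0
  have hψB := mem_bF.mp hψ
  have h1 := memLocalIdeal_RR_self hM hH hy hind hd hψB hpos
  have h2 : RR 2 hH b ψ ψ = ((2 ^ blockHeight 2 B (ψ : G → ℂ) : ℕ) : ℂ) := by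
    have := congrArg Subtype.val h0
    exact this
  rw [h2] at h1
  have h3 : ((2 ^ blockHeight 2 B (ψ : G → ℂ) : ℕ) : ℂ) / ((2 : ℕ) : ℂ) ^ blockHeight 2 B (ψ : G → ℂ) = 1 := by
    push_cast
    exact div_self (pow_ne_zero _ two_ne_zero)
  rw [h3] at h1
  exact not_memLocalIdeal_one h1

/-- **Major subsections at `2`: the dual inequality.** -/
theorem main_B (hM : IsPModular 2 M) (hy : ∃ k : ℕ, orderOf y = 2 ^ k)
    (hH : H = Subgroup.centralizer ({y} : Set G)) {b : Set (IrrCharacter H)}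
    {B : Set (IrrCharacter G)} (hind : IsInducedBlock M H b B)
    (hd : blockDefect 2 b = blockDefect 2 B) (hl : (bF B).card ≤ blockRank 2 b + 3) :
    (bF B).card ≤ 2 ^ blockDefect 2 B := by
  classical
  have hMp := hM.2.1.isPrime
  obtain ⟨j, hj⟩ := id hy
  have hn : y ^ 2 ^ j = 1 := by rw [← hj]; exact pow_orderOf_eq_one y
  haveI : NeZero (2 ^ j) := ⟨pow_ne_zero _ two_ne_zero⟩
  have D := matData hM hy hH hind hd hn
  refine D.bound_B rfl (odd_trace hM hy hH hind hn) ?_ hl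
  intro ψ hψ hpos h0
  have hψB := mem_bF.mp hψ
  have h1 := memLocalIdeal_RR_self hM hH hy hind hd hψB hpos
  set h := blockHeight 2 B (ψ : G → ℂ) with hh
  set d := blockDefect 2 B with hdd
  have hle : h + 2 ≤ d := Cfsg.Agent.S4710.height_add_two_le hM hind.2.1 hψB hpos
  have h2 : RR 2 hH b ψ ψ + 2 = ((2 ^ d : ℕ) : ℂ) := by
    have := congrArg Subtype.val h0
    exact this
  -- an odd number would lie in the ideal
  obtain ⟨e, he⟩ : ∃ e, h = e + 1 := ⟨h - 1, by omega⟩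
  rw [he] at h1
  have hC2 : (2 : ℂ) ≠ 0 := two_ne_zero
  have h3 : ((2 ^ (d - 1) - 1 : ℤ) : ℂ) =
      (2 : ℂ) ^ e * (RR 2 hH b ψ ψ / ((2 : ℕ) : ℂ) ^ (e + 1)) := by
    have h4 : RR 2 hH b ψ ψ = ((2 ^ d : ℕ) : ℂ) - 2 := by
      rw [← h2]
      ring
    obtain ⟨f, hf⟩ : ∃ f, d = f + 1 := ⟨d - 1, by omega⟩
    rw [h4, hf]
    simp only [Nat.add_sub_cancel]
    push_cast
    rw [pow_succ, pow_succ]
    field_simp
  have h5 : MemLocalIdeal M (((2 ^ (d - 1) - 1 : ℤ) : ℂ)) := by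
    rw [h3]
    exact memLocalIdeal_mul_left (memLocalRing_pow (by exact_mod_cast memLocalRing_natCast 2) _) h1
  rw [memLocalIdeal_intCast_iff hM] at h5
  have h6 : (2 : ℤ) ∣ 2 ^ (d - 1) := dvd_pow_self _ (by omega)
  have h8 : (2 : ℤ) ∣ 2 ^ (d - 1) - 1 := by exact_mod_cast h5
  have h9 := dvd_sub h6 h8
  have h10 : (2 : ℤ) ^ (d - 1) - (2 ^ (d - 1) - 1) = 1 := by ring
  rw [h10] at h9
  omega

end Two

end Cfsg.Agent.Lib.BlockMajorR
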