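import Mathlib
import Cfsg.Agent.Lib.BlockPrincipal
import Cfsg.Agent.Lib.FongReynolds
import Cfsg.Agent.Lib.BlkNormalSub

/-!
# Characters of degree prime to `p` in the principal block lying over a given character
-/

set_option autoImplicit false
set_option linter.unusedSectionVars false
set_option linter.unusedVariables false
set_option linter.style.haveILetI false

namespace Cfsg.Agent.Lib.BlockPrincOver

open Cfsg Cfsg.Agent.Lib.CharBasic Cfsg.Agent.Lib.CharInd Cfsg.Agent.Lib.CharIntegrality
open Cfsg.Agent.Lib.BlockLocal Cfsg.Agent.Lib.BlockIdem Cfsg.Agent.Lib.BlkBasic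
open Cfsg.Agent.Lib.BlkNormalSub Cfsg.Agent.Lib.BlockPrincipal Cfsg.Agent.Lib.BlockNormal
open Cfsg.Agent.Lib.FongReynolds

universe u

variable {G : Type u} [Group G] [Fintype G] {p : ℕ} [hp : Fact p.Prime] {M : Ideal AlgInt}

/-- Constituents of restrictions through an intermediate subgroup. -/
theorem classInner_restrict_ne_zero {N L : Subgroup G} [Fintype N] [Fintype L] (hNL : N ≤ L)
    (χ : IrrCharacter G) (η : IrrCharacter L) (θ : IrrCharacter N)
    (hη : ∀ n : N, (η : L → ℂ) (Subgroup.inclusion hNL n) = (θ : N → ℂ) n)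
    (h : classInner (fun l : L => (χ : G → ℂ) l) (η : L → ℂ) ≠ 0) :
    classInner (fun n : N => (χ : G → ℂ) n) (θ : N → ℂ) ≠ 0 := by
  classical
  have hχ := IsIrrCharacter.isCharacter χ.2
  obtain ⟨k, hk⟩ := exists_nat_decomp (isCharacter_restrict L hχ)
  have hkη : k η ≠ 0 := by
    intro h0
    apply h
    rw [hk, classInner_nat_decomp k (η : L → ℂ) η.2, h0]
    simp
  have h1 : (fun n : N => (χ : G → ℂ) n) =
      ∑ τ : IrrCharacter L, (k τ : ℂ) • ((τ : L → ℂ) ∘ Subgroup.inclusion hNL) := by
    funext n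
    have h2 := congrFun hk (Subgroup.inclusion hNL n)
    refine h2.trans ?_
    simp [Finset.sum_apply]
  rw [h1, classInner_sum_left]
  simp_rw [classInner_smul_left]
  have h3 : ∀ τ : IrrCharacter L, ∃ m : ℕ,
      classInner ((τ : L → ℂ) ∘ Subgroup.inclusion hNL) (θ : N → ℂ) = m := by
    intro τ
    have h4 := IsIrrCharacter.isCharacter τ.2
    exact classInner_char_irr (isCharacter_comp (Subgroup.inclusion hNL) h4) θ.2
  choose m hm using h3
  simp_rw [hm]
  have h5 : m η = 1 := by
    have h6 : (η : L → ℂ) ∘ Subgroup.inclusion hNL = (θ : N → ℂ) := funext hη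
    have h7 := hm η
    rw [h6, classInner_irr_self θ.2] at h7
    exact_mod_cast h7.symm
  have h8 : (∑ τ : IrrCharacter L, k τ * m τ) ≠ 0 := by
    apply ne_of_gt
    refine lt_of_lt_of_le ?_ (Finset.single_le_sum (f := fun τ => k τ * m τ)
      (fun _ _ => Nat.zero_le _) (Finset.mem_univ η))
    simp only [h5, mul_one]
    exact Nat.pos_of_ne_zero hkη
  intro h9
  apply h8
  have : ((∑ τ : IrrCharacter L, k τ * m τ : ℕ) : ℂ) = 0 := by
    push_cast
    exact h9
  exact_mod_cast this

/-- **Constituents of an induced character in the principal block**. -/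
theorem exists_principal_over (hM : IsPModular p M) (N : Subgroup G) [hN : N.Normal] [Fintype N]
    (P : Sylow p G) (θ : IrrCharacter N) (hθ : θ ∈ principalBlock M N)
    (hdeg : ¬ p ∣ charDegree (θ : N → ℂ)) (L : Subgroup G) [Fintype L] (hNL : N ≤ L)
    (hPL : (P : Subgroup G) ≤ L) (hL : N ⊔ (P : Subgroup G) = L)
    (η : IrrCharacter L)
    (hη : ∀ n : N, (η : L → ℂ) (Subgroup.inclusion hNL n) = (θ : N → ℂ) n) :
    ∃ χ : IrrCharacter G, χ ∈ principalBlock M G ∧ ¬ p ∣ charDegree (χ : G → ℂ) ∧
      classInner (fun n : N => (χ : G → ℂ) n) (θ : N → ℂ) ≠ 0 := by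
  classical
  haveI hMp : M.IsPrime := hM.2.1.isPrime
  have hpp : p.Prime := hp.out
  -- the index of `L` is prime to `p`
  have hidx : ¬ p ∣ L.index := by
    have h1 : L.index ∣ (P : Subgroup G).index := Subgroup.index_dvd_of_le hPL
    intro h2
    exact (P.not_dvd_index) (h2.trans h1)
  have hNLidx : ∃ k : ℕ, (N.subgroupOf L).index = p ^ k := by
    have h1 : (N.subgroupOf L).index = N.relIndex (P : Subgroup G) := by
      have h0 := Subgroup.relIndex_sup_left (P : Subgroup G) N
      rw [hL] at h0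
      exact h0
    have h2 : N.relIndex (P : Subgroup G) ∣ Nat.card (P : Subgroup G) := Subgroup.index_dvd_card _
    rw [Sylow.card_eq_multiplicity P] at h2
    obtain ⟨j, -, hj⟩ := (Nat.dvd_prime_pow hpp).mp h2
    exact ⟨j, by rw [h1, hj]⟩
  -- p-regular elements of `L` lie in `N`
  have hreg : ∀ y : L, ¬ p ∣ orderOf y → (y : G) ∈ N := by
    intro y hy
    have h1 := mem_of_regular_of_index (N := N.subgroupOf L) hNLidx
      (Subgroup.normal_subgroupOf) hy
    exact h1
  set ψ : G → ℂ := indFun L (η : L → ℂ) with hψ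
  have hψc : IsCharacter G ψ := indFun_isCharacter L (IsIrrCharacter.isCharacter η.2)
  obtain ⟨k, hk⟩ := exists_nat_decomp hψc
  -- the key sum
  have hsum : ∑ x : G, ψ x * regInd p G x = (L.index : ℂ) * ∑ y : L, (η : L → ℂ) y * regInd p G y :=
    sum_indFun_mul_class _ regInd_isClassFunction
  have hsum2 : ∑ y : L, (η : L → ℂ) y * regInd p G y = (θ : N → ℂ) 1 * omega (θ : N → ℂ) (regInd p N) := by
    have hθ1 : (θ : N → ℂ) 1 ≠ 0 := irr_one_ne_zero' θ.2
    unfold omega
    rw [mul_div_cancel₀ _ hθ1]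
    symm
    refine Fintype.sum_of_injective (Subgroup.inclusion hNL)
      (Subgroup.inclusion_injective _) _ _ ?_ ?_
    · intro y hy
      by_cases h : p ∣ orderOf (y : G)
      · rw [regInd_of_sing h, mul_zero]
      · exfalso
        apply hy
        refine ⟨⟨y, hreg y (by rwa [Subgroup.orderOf_coe] at h)⟩, ?_⟩
        apply Subtype.ext
        rfl
    · intro n
      rw [hη, mul_comm]
      congr 1
      have e : orderOf (((Subgroup.inclusion hNL n : L)) : G) = orderOf n := by
        show orderOf (n : G) = orderOf n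
        exact Subgroup.orderOf_coe n
      by_cases h : p ∣ orderOf n
      · rw [regInd_of_sing h, regInd_of_sing]
        rwa [e]
      · rw [regInd_of_reg h, regInd_of_reg]
        rwa [e]
  -- the central value on `θ` is a unit
  have hunit : ¬ MemLocalIdeal M (omega (θ : N → ℂ) (regInd p N)) := by
    have hZ := mem_Zc_of_classFunction (M := M) (regInd_isClassFunction (G := N) (p := p))
      (fun n => memLocalRing_regInd n)
    have hS : SameBlock M (irrOne N : N → ℂ) (θ : N → ℂ) := hθ
    have h1 := memLocalIdeal_sub_of_mem_Zc hZ hS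
    beta_reduce at h1
    rw [omega_irrOne_regInd] at h1
    intro h2
    have h3 := memLocalIdeal_add h1 h2
    rw [sub_add_cancel] at h3
    exact (not_dvd_card_regular (G := N) (p := p)) ((memLocalIdeal_natCast_iff hM).mp h3)
  have hθdeg : (θ : N → ℂ) 1 = (charDegree (θ : N → ℂ) : ℂ) :=
    Cfsg.Agent.Lib.CharKernel.one_eq_charDegree (IsIrrCharacter.isCharacter θ.2)
  have hT : ¬ MemLocalIdeal M (∑ x : G, ψ x * regInd p G x) := by
    rw [hsum, hsum2, hθdeg]
    intro h0
    have hR : MemLocalRing M (omega (θ : N → ℂ) (regInd p N)) :=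
      memLocalRing_of_mem_Zc (mem_Zc_of_classFunction regInd_isClassFunction fun n => memLocalRing_regInd n) θ
    rcases (memLocalIdeal_mul_iff (memLocalRing_natCast _)
      (memLocalRing_mul (memLocalRing_natCast _) hR)).mp h0 with h1 | h1
    · exact hidx ((memLocalIdeal_natCast_iff hM).mp h1)
    · rcases (memLocalIdeal_mul_iff (memLocalRing_natCast _) hR).mp h1 with h2 | h2
      · exact hdeg ((memLocalIdeal_natCast_iff hM).mp h2)
      · exact hunit h2
  -- expand over constituents
  have hexp : ∑ x : G, ψ x * regInd p G x = ∑ χ : IrrCharacter G,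
      (k χ : ℂ) * ((χ : G → ℂ) 1 * omega (χ : G → ℂ) (regInd p G)) := by
    conv_lhs => rw [hk]
    simp only [Finset.sum_apply, Finset.sum_mul, Pi.smul_apply, nsmul_eq_mul]
    rw [Finset.sum_comm]
    refine Finset.sum_congr rfl fun χ _ => ?_
    unfold omega
    rw [mul_div_cancel₀ _ (irr_one_ne_zero' χ.2), Finset.mul_sum]
    refine Finset.sum_congr rfl fun x _ => ?_
    show ((k χ : ℂ) * (χ : G → ℂ) x) * regInd p G x = _
    ring
  have hex : ∃ χ : IrrCharacter G, ¬ MemLocalIdeal M
      ((k χ : ℂ) * ((χ : G → ℂ) 1 * omega (χ : G → ℂ) (regInd p G))) := by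
    by_contra hcon
    push Not at hcon
    apply hT
    rw [hexp]
    exact memLocalIdeal_sum _ _ fun χ _ => hcon χ
  obtain ⟨χ, hχ⟩ := hex
  have hχdeg : (χ : G → ℂ) 1 = (charDegree (χ : G → ℂ) : ℂ) :=
    Cfsg.Agent.Lib.CharKernel.one_eq_charDegree (IsIrrCharacter.isCharacter χ.2)
  have hR2 : MemLocalRing M (omega (χ : G → ℂ) (regInd p G)) :=
    memLocalRing_of_mem_Zc (mem_Zc_of_classFunction regInd_isClassFunction fun n => memLocalRing_regInd n) χ
  refine ⟨χ, ?_, ?_, ?_⟩
  · by_contra h
    apply hχ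
    rw [omega_regInd_eq_zero hM h]
    simpa using memLocalIdeal_zero (M := M)
  · intro hd
    apply hχ
    rw [hχdeg]
    exact memLocalIdeal_mul_left (memLocalRing_natCast _)
      (memLocalIdeal_mul_right (memLocalIdeal_natCast_of_dvd hM hd) hR2)
  · have hk0 : k χ ≠ 0 := by
      intro h0
      apply hχ
      rw [h0]
      simpa using memLocalIdeal_zero (M := M)
    have hinner : classInner ψ (χ : G → ℂ) ≠ 0 := by
      rw [hk, classInner_nat_decomp k (χ : G → ℂ) χ.2]
      exact_mod_cast hk0
    have hfrob := frobenius L (η : L → ℂ)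
      (isClassFunction_of_isCharacter (IsIrrCharacter.isCharacter χ.2))
    rw [← hψ, ] at hfrob
    rw [hfrob] at hinner
    refine classInner_restrict_ne_zero hNL χ η θ hη ?_
    intro h0
    apply hinner
    rw [← classInner_conj_symm, h0, map_zero]

end Cfsg.Agent.Lib.BlockPrincOver
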