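import Mathlib
import Cfsg.Agent.Lib.ChermakDelgado
import Cfsg.Agent.Lib.BrolineGT

/-!
# A minimal centrally large subgroup normalized by `J(P)` and `P_MCL`.

In a finite `p`-group, replace a minimal centrally large subgroup `Q` by
`(Q ∩ C(W)) W` for `W` abelian of largest measure; this is again minimal centrally large. An
induction on the subgroups generated by largest abelian subgroups and centres of minimal centrally
large subgroups then produces a minimal centrally large subgroup normalized by all of them.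
-/

set_option autoImplicit false

namespace Cfsg.Agent.Lib.CDNormal

open Cfsg Cfsg.Agent.Lib.ChermakDelgado
open scoped Pointwise

variable {G : Type*} [Group G]

/-- The conjugate `g X g⁻¹`. -/
def cj (g : G) (X : Subgroup G) : Subgroup G := X.map (MulAut.conj g).toMonoidHom

theorem mem_cj {g x : G} {X : Subgroup G} : x ∈ cj g X ↔ g⁻¹ * x * g ∈ X := by
  constructor
  · rintro ⟨z, hz, rfl⟩
    have : g⁻¹ * ((MulAut.conj g).toMonoidHom z) * g = z := by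
      show g⁻¹ * (g * z * g⁻¹) * g = z
      group
    rw [this]
    exact hz
  · intro h
    refine ⟨_, h, ?_⟩
    show g * (g⁻¹ * x * g) * g⁻¹ = x
    group

theorem conj_mem_cj {g x : G} {X : Subgroup G} (h : x ∈ X) : g * x * g⁻¹ ∈ cj g X := by
  rw [mem_cj]
  have : g⁻¹ * (g * x * g⁻¹) * g = x := by group
  rw [this]
  exact h

theorem cj_one (X : Subgroup G) : cj 1 X = X := by
  ext x
  rw [mem_cj]
  simp

theorem cj_mul (g h : G) (X : Subgroup G) : cj (g * h) X = cj g (cj h X) := by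
  ext x
  rw [mem_cj, mem_cj, mem_cj]
  have : (g * h)⁻¹ * x * (g * h) = h⁻¹ * (g⁻¹ * x * g) * h := by group
  rw [this]

theorem cj_mono (g : G) {X Y : Subgroup G} (h : X ≤ Y) : cj g X ≤ cj g Y := by
  intro x hx
  rw [mem_cj] at hx ⊢
  exact h hx

theorem cj_le_iff {g : G} {X Y : Subgroup G} : cj g X ≤ Y ↔ X ≤ cj g⁻¹ Y := by
  constructor
  · intro h x hx
    rw [mem_cj]
    have := h (conj_mem_cj (g := g) hx)
    simpa using this
  · intro h x hx
    rw [mem_cj] at hx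
    have := h hx
    rw [mem_cj] at this
    have e : g⁻¹⁻¹ * (g⁻¹ * x * g) * g⁻¹ = x := by group
    rwa [e] at this

theorem cj_inf (g : G) (X Y : Subgroup G) : cj g (X ⊓ Y) = cj g X ⊓ cj g Y := by
  ext x
  simp only [Subgroup.mem_inf, mem_cj]

theorem cj_sup (g : G) (X Y : Subgroup G) : cj g (X ⊔ Y) = cj g X ⊔ cj g Y := by
  unfold cj
  exact Subgroup.map_sup _ _ _

theorem cj_Cz (g : G) (X : Subgroup G) : cj g (Cz X) = Cz (cj g X) := by
  ext x
  rw [mem_cj, mem_Cz, mem_Cz]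
  constructor
  · intro h a ha
    rw [mem_cj] at ha
    have := h _ ha
    have e1 : a * x = g * ((g⁻¹ * a * g) * (g⁻¹ * x * g)) * g⁻¹ := by group
    have e2 : x * a = g * ((g⁻¹ * x * g) * (g⁻¹ * a * g)) * g⁻¹ := by group
    rw [e1, e2, this]
  · intro h a ha
    have := h (g * a * g⁻¹) (conj_mem_cj ha)
    have e1 : a * (g⁻¹ * x * g) = g⁻¹ * ((g * a * g⁻¹) * x) * g := by group
    have e2 : (g⁻¹ * x * g) * a = g⁻¹ * (x * (g * a * g⁻¹)) * g := by group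
    rw [e1, e2, this]

theorem card_cj (g : G) (X : Subgroup G) : Nat.card (cj g X) = Nat.card X :=
  Subgroup.card_map_of_injective (MulAut.conj g).injective

/-- The normalizer of a subgroup. -/
abbrev Nm (X : Subgroup G) : Subgroup G := Subgroup.normalizer (X : Set G)

theorem mem_Nm {g : G} {X : Subgroup G} : g ∈ Nm X ↔ cj g X = X := by
  rw [Subgroup.mem_normalizer_iff]
  constructor
  · intro h
    ext x
    rw [mem_cj]
    have := h (g⁻¹ * x * g)
    have e : g * (g⁻¹ * x * g) * g⁻¹ = x := by group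
    rw [e] at this
    exact this
  · intro h x
    have : g * x * g⁻¹ ∈ X ↔ x ∈ X := by
      conv_lhs => rw [← h]
      rw [mem_cj]
      have e : g⁻¹ * (g * x * g⁻¹) * g = x := by group
      rw [e]
    exact this.symm

theorem Nm_inf {g : G} {X Y : Subgroup G} (h1 : g ∈ Nm X) (h2 : g ∈ Nm Y) : g ∈ Nm (X ⊓ Y) := by
  rw [mem_Nm] at *
  rw [cj_inf, h1, h2]

theorem Nm_sup {g : G} {X Y : Subgroup G} (h1 : g ∈ Nm X) (h2 : g ∈ Nm Y) : g ∈ Nm (X ⊔ Y) := by
  rw [mem_Nm] at *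
  rw [cj_sup, h1, h2]

theorem Nm_Cz {g : G} {X : Subgroup G} (h1 : g ∈ Nm X) : g ∈ Nm (Cz X) := by
  rw [mem_Nm] at *
  rw [cj_Cz, h1]

theorem Cz_le_Nm (X : Subgroup G) : Cz X ≤ Nm X := by
  intro g hg
  rw [Subgroup.mem_normalizer_iff]
  intro x
  have hc := mem_Cz.mp hg
  constructor
  · intro hx
    have e : g * x * g⁻¹ = x := by
      rw [← hc x hx]
      group
    rw [e]
    exact hx
  · intro hx
    have e := hc _ hx
    have e2 : g * x * g⁻¹ = x := by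
      have : g * x * g⁻¹ * g = g * (g * x * g⁻¹) := e
      have h3 : g * x = g * (g * x * g⁻¹) := by
        rw [← this]
        group
      exact (mul_left_cancel h3).symm
    rw [e2] at hx
    exact hx

theorem Nm_iInf {ι : Sort*} {g : G} {f : ι → Subgroup G} (h : ∀ i, g ∈ Nm (f i)) :
    g ∈ Nm (⨅ i, f i) := by
  rw [Subgroup.mem_normalizer_iff]
  intro x
  simp only [Subgroup.mem_iInf]
  constructor
  · intro hx i
    exact (Subgroup.mem_normalizer_iff.mp (h i) x).mp (hx i)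
  · intro hx i
    exact (Subgroup.mem_normalizer_iff.mp (h i) x).mpr (hx i)

/-! ### Intersections and joins of a conjugation family -/

/-- The intersection of the conjugates of `X` by `B`. -/
def Dd (B X : Subgroup G) : Subgroup G := ⨅ y : B, cj (y : G) X

/-- The join of the conjugates of `X` by `B`. -/
def Ff (B X : Subgroup G) : Subgroup G := ⨆ y : B, cj (y : G) X

theorem mem_Dd {B X : Subgroup G} {x : G} : x ∈ Dd B X ↔ ∀ y ∈ B, y⁻¹ * x * y ∈ X := by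
  unfold Dd
  rw [Subgroup.mem_iInf]
  constructor
  · intro h y hy
    exact mem_cj.mp (h ⟨y, hy⟩)
  · intro h y
    exact mem_cj.mpr (h y y.2)

theorem Dd_le (B X : Subgroup G) : Dd B X ≤ X := by
  intro x hx
  have := mem_Dd.mp hx 1 B.one_mem
  simpa using this

theorem le_Ff (B X : Subgroup G) : X ≤ Ff B X := by
  have : cj ((1 : B) : G) X ≤ Ff B X := le_iSup (fun y : B => cj (y : G) X) 1
  simpa [cj_one] using this

theorem cj_le_Ff {B : Subgroup G} (X : Subgroup G) {y : G} (hy : y ∈ B) : cj y X ≤ Ff B X :=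
  le_iSup (fun y : B => cj (y : G) X) ⟨y, hy⟩

theorem Dd_le_cj {B : Subgroup G} (X : Subgroup G) {y : G} (hy : y ∈ B) : Dd B X ≤ cj y X :=
  iInf_le (fun y : B => cj (y : G) X) ⟨y, hy⟩

theorem Dd_mono (B : Subgroup G) {X Y : Subgroup G} (h : X ≤ Y) : Dd B X ≤ Dd B Y :=
  iInf_mono fun _ => cj_mono _ h

theorem Cz_iSup {ι : Sort*} (f : ι → Subgroup G) : Cz (⨆ i, f i) = ⨅ i, Cz (f i) := by
  apply le_antisymm
  · exact le_iInf fun i => Cz_antitone (le_iSup f i)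
  · intro g hg
    have hg' : ∀ i, g ∈ Cz (f i) := fun i => (Subgroup.mem_iInf.mp hg) i
    have h1 : (⨆ i, f i) ≤ Subgroup.centralizer ({g} : Set G) := by
      apply iSup_le
      intro i x hx
      rw [Subgroup.mem_centralizer_singleton_iff]
      exact (mem_Cz.mp (hg' i)) x hx
    rw [mem_Cz]
    intro h hh
    exact Subgroup.mem_centralizer_singleton_iff.mp (h1 hh)

theorem Cz_Ff (B X : Subgroup G) : Cz (Ff B X) = Dd B (Cz X) := by
  unfold Ff Dd
  rw [Cz_iSup]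
  simp only [cj_Cz]

theorem Nm_Ff_of_forall {B X : Subgroup G} {g : G} (h : ∀ y ∈ B, g ∈ Nm (cj y X)) :
    g ∈ Nm (Ff B X) := by
  rw [mem_Nm]
  unfold Ff cj
  rw [Subgroup.map_iSup]
  congr 1
  funext y
  exact mem_Nm.mp (h y y.2)

theorem Nm_Dd_of_forall {B X : Subgroup G} {g : G} (h : ∀ y ∈ B, g ∈ Nm (cj y X)) :
    g ∈ Nm (Dd B X) := by
  unfold Dd
  exact Nm_iInf fun y => h y y.2

theorem self_Nm_Ff {B X : Subgroup G} {g : G} (hg : g ∈ B) : g ∈ Nm (Ff B X) := by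
  rw [mem_Nm]
  apply le_antisymm
  · unfold Ff cj
    rw [Subgroup.map_iSup]
    apply iSup_le
    intro y
    have := cj_le_Ff (B := B) X (B.mul_mem hg y.2)
    rw [cj_mul] at this
    exact this
  · apply iSup_le
    intro y
    have h1 : cj (y : G) X = cj g (cj (g⁻¹ * y) X) := by
      rw [← cj_mul]
      congr 1
      group
    rw [h1]
    exact cj_mono _ (cj_le_Ff X (B.mul_mem (B.inv_mem hg) y.2))

theorem self_Nm_Dd {B X : Subgroup G} {g : G} (hg : g ∈ B) : g ∈ Nm (Dd B X) := by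
  rw [Subgroup.mem_normalizer_iff]
  intro x
  simp only [mem_Dd]
  constructor
  · intro h y hy
    have := h (g⁻¹ * y) (B.mul_mem (B.inv_mem hg) hy)
    have e : (g⁻¹ * y)⁻¹ * x * (g⁻¹ * y) = y⁻¹ * (g * x * g⁻¹) * y := by group
    rwa [e] at this
  · intro h y hy
    have := h (g * y) (B.mul_mem hg hy)
    have e : (g * y)⁻¹ * (g * x * g⁻¹) * (g * y) = y⁻¹ * x * y := by group
    rwa [e] at this

/-- A normalizer of both `B` and `X` normalizes `Dd B X`. -/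
theorem Nm_Dd {B X : Subgroup G} {g : G} (hB : g ∈ Nm B) (hX : g ∈ Nm X) : g ∈ Nm (Dd B X) := by
  rw [Subgroup.mem_normalizer_iff]
  intro x
  simp only [mem_Dd]
  have hB' := Subgroup.mem_normalizer_iff.mp hB
  have hX' := Subgroup.mem_normalizer_iff.mp hX
  constructor
  · intro h y hy
    have hy2 : g⁻¹ * y * g ∈ B := by
      have h1 := (hB' (g⁻¹ * y * g)).mpr
      apply h1
      have e : g * (g⁻¹ * y * g) * g⁻¹ = y := by group
      rw [e]
      exact hy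
    have := h _ hy2
    have h3 := (hX' _).mp this
    have e : g * ((g⁻¹ * y * g)⁻¹ * x * (g⁻¹ * y * g)) * g⁻¹ = y⁻¹ * (g * x * g⁻¹) * y := by group
    rwa [e] at h3
  · intro h y hy
    have hy2 : g * y * g⁻¹ ∈ B := (hB' y).mp hy
    have := h _ hy2
    have e : (g * y * g⁻¹)⁻¹ * (g * x * g⁻¹) * (g * y * g⁻¹) = g * (y⁻¹ * x * y) * g⁻¹ := by group
    rw [e] at this
    exact (hX' _).mpr this

variable [Finite G]

theorem isMax_iSup {ι : Type*} [Nonempty ι] (f : ι → Subgroup G) (h : ∀ i, ChermakDelgado.IsMax (f i)) :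
    ChermakDelgado.IsMax (⨆ i, f i) := by
  obtain ⟨i₀⟩ := ‹Nonempty ι›
  let T : Set (Subgroup G) := {X | ChermakDelgado.IsMax X ∧ X ≤ ⨆ i, f i}
  have : Nonempty T := ⟨⟨f i₀, h i₀, le_iSup f i₀⟩⟩
  obtain ⟨⟨J, hJ1, hJ2⟩, hJ⟩ := Finite.exists_max (fun X : T => Nat.card (X.1))
  have hJmax : ∀ i, f i ≤ J := by
    intro i
    have h1 : ChermakDelgado.IsMax (J ⊔ f i) := hJ1.sup (h i)
    have h2 : J ⊔ f i ≤ ⨆ i, f i := sup_le hJ2 (le_iSup f i)
    have h3 := hJ ⟨_, h1, h2⟩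
    have h4 := Subgroup.eq_of_le_of_card_ge (le_sup_left : J ≤ J ⊔ f i) h3
    rw [h4]
    exact le_sup_right
  have : J = ⨆ i, f i := le_antisymm hJ2 (iSup_le hJmax)
  rw [← this]
  exact hJ1

theorem isMax_Ff (B : Subgroup G) {X : Subgroup G} (h : ChermakDelgado.IsMax X) : ChermakDelgado.IsMax (Ff B X) :=
  isMax_iSup _ fun y => h.conj _

theorem isMax_Dd (B : Subgroup G) {X : Subgroup G} (h : ChermakDelgado.IsMax X) : ChermakDelgado.IsMax (Dd B X) := by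
  have h1 := (isMax_Ff B h.cz).cz
  rw [Cz_Ff, h.Cz_Cz] at h1
  exact h1

/-! ### The replacement lemma -/

/-- Replacing a minimal centrally large subgroup. -/
theorem replacement {Q W : Subgroup G} (hQ : IsMinimalCentrallyLarge Q) (hW : ChermakDelgado.IsMax W)
    (hWab : W ≤ Cz W) :
    IsMinimalCentrallyLarge ((Q ⊓ Cz W) ⊔ W) ∧ W ≤ Cz ((Q ⊓ Cz W) ⊔ W) := by
  have hQm := cl_isMax hQ.1
  have hZQ : Cz Q ≤ Q := cl_Cz_le hQ.1
  have hC : ChermakDelgado.IsMax (Cz W) := hW.cz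
  have hCC : Cz (Cz W) = W := hW.Cz_Cz
  have hI : ChermakDelgado.IsMax (Q ⊓ Cz W) := hQm.inf hC
  have hstar : ChermakDelgado.IsMax ((Q ⊓ Cz W) ⊔ W) := hI.sup hW
  have hCzI : Cz (Q ⊓ Cz W) = Cz Q ⊔ W := by rw [hQm.Cz_inf hC, hCC]
  have hCzstar : Cz ((Q ⊓ Cz W) ⊔ W) = (Cz Q ⊔ W) ⊓ Cz W := by rw [Cz_sup, hCzI]
  have hle : (Cz Q ⊔ W) ⊓ Cz W ≤ (Q ⊓ Cz W) ⊔ W := by
    rintro x ⟨hx1, hx2⟩
    have hx1' : x ∈ ((Cz Q ⊔ W : Subgroup G) : Set G) := hx1
    rw [hQm.cz.coe_sup hW] at hx1'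
    obtain ⟨m, hm, w, hw, rfl⟩ := hx1'
    have hm2 : m ∈ Cz W := by
      have := (Cz W).mul_mem hx2 ((Cz W).inv_mem (hWab hw))
      simpa using this
    exact Subgroup.mul_mem _ (Subgroup.mem_sup_left ⟨hZQ hm, hm2⟩) (Subgroup.mem_sup_right hw)
  have hcl : IsCentrallyLarge ((Q ⊓ Cz W) ⊔ W) :=
    (isCentrallyLarge_iff _).mpr ⟨hstar, by rw [hCzstar]; exact hle⟩
  have hTM : Q ⊓ W ≤ Cz Q := by
    have hT : ChermakDelgado.IsMax (Q ⊓ W) := hQm.inf hW
    have hTab : Q ⊓ W ≤ Cz (Q ⊓ W) := (inf_le_right.trans hWab).trans (Cz_antitone inf_le_right)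
    have hc1 : Cz (Q ⊓ Cz (Q ⊓ W)) = Cz Q ⊔ (Q ⊓ W) := by
      rw [hQm.Cz_inf hT.cz, hT.Cz_Cz]
    have hm : ChermakDelgado.IsMax (Q ⊓ Cz (Q ⊓ W)) := hQm.inf hT.cz
    have hc2 : Cz (Q ⊓ Cz (Q ⊓ W)) ≤ Q ⊓ Cz (Q ⊓ W) := by
      rw [hc1]
      apply sup_le
      · exact le_inf hZQ (Cz_antitone inf_le_left)
      · exact le_inf inf_le_left hTab
    have h3 := hQ.2 _ inf_le_left ((isCentrallyLarge_iff _).mpr ⟨hm, hc2⟩)
    have h4 : Q ≤ Cz (Q ⊓ W) := by
      have h5 : Q ⊓ Cz (Q ⊓ W) ≤ Cz (Q ⊓ W) := inf_le_right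
      rwa [h3] at h5
    exact le_Cz_comm h4
  have hMW : Cz Q ⊓ W = Q ⊓ W :=
    le_antisymm (inf_le_inf hZQ le_rfl) (le_inf hTM inf_le_right)
  have hII : (Q ⊓ Cz W) ⊓ W = Q ⊓ W :=
    le_antisymm (le_inf (inf_le_left.trans inf_le_left) inf_le_right)
      (le_inf (le_inf inf_le_left (inf_le_right.trans hWab)) inf_le_right)
  have l1 := (hQm.lattice hC).2.2.1
  have l2 := (hI.lattice hW).2.2.1
  rw [hII] at l2
  have hm : meas (Q ⊔ Cz W) = meas W := le_antisymm (hW _) ((hQm.sup hC) _)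
  have hm2 : Nat.card ↥(Q ⊔ Cz W) * Nat.card ↥(Q ⊓ W) = Nat.card W * Nat.card (Cz W) := by
    have : Cz (Q ⊔ Cz W) = Q ⊓ W := by rw [Cz_sup, hCC, hMW]
    unfold meas at hm
    rwa [this] at hm
  have hcard : Nat.card ↥((Q ⊓ Cz W) ⊔ W) = Nat.card Q := by
    set a := Nat.card Q
    set star := Nat.card ↥((Q ⊓ Cz W) ⊔ W)
    set t := Nat.card ↥(Q ⊓ W)
    set i := Nat.card ↥(Q ⊓ Cz W)
    set w := Nat.card W
    set c := Nat.card (Cz W)
    set s := Nat.card ↥(Q ⊔ Cz W)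
    have ht : 0 < t * s := Nat.mul_pos Nat.card_pos Nat.card_pos
    apply Nat.eq_of_mul_eq_mul_right ht
    calc star * (t * s) = (star * t) * s := by ring
      _ = (i * w) * s := by rw [l2]
      _ = (s * i) * w := by ring
      _ = (a * c) * w := by rw [l1]
      _ = a * (w * c) := by ring
      _ = a * (s * t) := by rw [hm2]
      _ = a * (t * s) := by ring
  refine ⟨?_, ?_⟩
  · obtain ⟨X, hX, hXle⟩ := exists_minimal_le hcl
    have hc := (mcl_card hX hQ).1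
    have : X = (Q ⊓ Cz W) ⊔ W := Subgroup.eq_of_le_of_card_ge hXle (by rw [hcard, hc])
    rwa [← this]
  · rw [hCzstar]
    exact le_inf le_sup_right hWab

theorem replacement_Nm {g : G} {Q W : Subgroup G} (h1 : g ∈ Nm Q) (h2 : g ∈ Nm W) :
    g ∈ Nm ((Q ⊓ Cz W) ⊔ W) :=
  Nm_sup (Nm_inf h1 (Nm_Cz h2)) h2

/-! ### A central section in a `p`-group -/

theorem exists_central_section {p : ℕ} [Fact p.Prime] (hG : IsPGroup p G) {N D F : Subgroup G}
    (hDN : N ≤ Nm D) (hFN : N ≤ Nm F) (hDF : D ≤ F) (hFle : F ≤ N) (hne : D ≠ F) :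
    ∃ v ∈ F, v ∉ D ∧ ∀ n ∈ N, n * v * n⁻¹ * v⁻¹ ∈ D := by
  classical
  have hND : (D.subgroupOf N).Normal := by
    refine ⟨fun x hx g => ?_⟩
    rw [Subgroup.mem_subgroupOf] at hx ⊢
    exact (Subgroup.mem_normalizer_iff.mp (hDN g.2) _).mp hx
  have hNF : (F.subgroupOf N).Normal := by
    refine ⟨fun x hx g => ?_⟩
    rw [Subgroup.mem_subgroupOf] at hx ⊢
    exact (Subgroup.mem_normalizer_iff.mp (hFN g.2) _).mp hx
  let q := QuotientGroup.mk' (D.subgroupOf N)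
  have hqs : Function.Surjective q := QuotientGroup.mk'_surjective _
  have hpN : IsPGroup p N := hG.to_subgroup N
  have hpQ : IsPGroup p (N ⧸ D.subgroupOf N) := hpN.to_quotient _
  haveI : Group.IsNilpotent (N ⧸ D.subgroupOf N) := hpQ.isNilpotent
  let F' := (F.subgroupOf N).map q
  haveI hF'n : F'.Normal := Subgroup.Normal.map hNF q hqs
  have hF'ne : F' ≠ ⊥ := by
    intro hbot
    apply hne
    apply le_antisymm hDF
    intro f hf
    have h1 : q ⟨f, hFle hf⟩ ∈ F' := ⟨⟨f, hFle hf⟩, by rw [SetLike.mem_coe, Subgroup.mem_subgroupOf]; exact hf, rfl⟩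
    rw [hbot, Subgroup.mem_bot] at h1
    have h2 := (QuotientGroup.eq_one_iff _).mp h1
    rwa [Subgroup.mem_subgroupOf] at h2
  have hcen := Cfsg.Agent.Lib.BrolineGT.inf_center_ne_bot F' hF'ne
  obtain ⟨⟨x, hx⟩, hx1'⟩ := Subgroup.ne_bot_iff_exists_ne_one.mp hcen
  have hx1 : x ≠ 1 := fun h => hx1' (Subtype.ext h)
  obtain ⟨⟨v, hvN⟩, hvF, rfl⟩ := hx.1
  rw [SetLike.mem_coe, Subgroup.mem_subgroupOf] at hvF
  refine ⟨v, hvF, ?_, ?_⟩
  · intro hvD
    apply hx1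
    exact (QuotientGroup.eq_one_iff _).mpr (by rw [Subgroup.mem_subgroupOf]; exact hvD)
  · intro n hn
    have hc := (Subgroup.mem_center_iff.mp hx.2) (q ⟨n, hn⟩)
    have h1 : q (⟨n, hn⟩ * ⟨v, hvN⟩ * ⟨n, hn⟩⁻¹ * ⟨v, hvN⟩⁻¹) = 1 := by
      rw [map_mul, map_mul, map_mul, map_inv, map_inv, hc]
      group
    have h2 := (QuotientGroup.eq_one_iff _).mp h1
    rw [Subgroup.mem_subgroupOf] at h2
    exact h2

/-! ### The key step -/

theorem key_step {p : ℕ} [Fact p.Prime] (hG : IsPGroup p G) {Q S B : Subgroup G}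
    (hQ : IsMinimalCentrallyLarge Q) (hSQ : S ≤ Nm Q) (hBS : B ≤ Nm S) (hBab : B ≤ Cz B)
    (hperm : ((Cz Q ⊔ B : Subgroup G) : Set G) = (Cz Q : Set G) * (B : Set G))
    (hBQ : ¬ B ≤ Nm Q) :
    ∃ W, ChermakDelgado.IsMax W ∧ W ≤ Cz W ∧ S ≤ Nm W ∧ B ≤ Nm W ∧
      Dd B (Cz Q) ≤ W ∧ Dd B (Cz Q) ≠ W := by
  have hQm := cl_isMax hQ.1
  have hZQ : Cz Q ≤ Q := cl_Cz_le hQ.1
  have hMm : ChermakDelgado.IsMax (Cz Q) := hQm.cz
  have hCM : Cz (Cz Q) = Q := hQm.Cz_Cz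
  have hMab : Cz Q ≤ Cz (Cz Q) := by rw [hCM]; exact hZQ
  set M := Cz Q with hMdef
  set D := Dd B M with hDdef
  set F := Ff B M with hFdef
  set Qc := Dd B Q with hQcdef
  have hF : ChermakDelgado.IsMax F := isMax_Ff B hMm
  have hD : ChermakDelgado.IsMax D := isMax_Dd B hMm
  have hQc : ChermakDelgado.IsMax Qc := isMax_Dd B hQm
  have hCzF : Cz F = Qc := by rw [hFdef, Cz_Ff, hCM]
  have hCzQc : Cz Qc = F := by rw [← hCzF, hF.Cz_Cz]
  have hDM : D ≤ M := Dd_le B M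
  have hMF : M ≤ F := le_Ff B M
  have hDF : D ≤ F := hDM.trans hMF
  have hDQc : D ≤ Qc := Dd_mono B hZQ
  have hQcQ : Qc ≤ Q := Dd_le B Q
  have hFCzD : F ≤ Cz D := by
    apply iSup_le
    intro y
    have h1 : cj (y : G) M ≤ Cz (cj (y : G) M) := by
      rw [← cj_Cz]
      exact cj_mono _ hMab
    exact h1.trans (Cz_antitone (Dd_le_cj M y.2))
  have hDab : D ≤ Cz D := hDF.trans hFCzD
  have hSM : ∀ r ∈ S, r ∈ Nm M := fun r hr => Nm_Cz (hSQ hr)
  have hSnorm : ∀ r ∈ S, ∀ y ∈ B, r ∈ Nm (cj y M) := by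
    intro r hr y hy
    rw [mem_Nm]
    have hr' : y⁻¹ * r * y ∈ S := by
      have := (Subgroup.mem_normalizer_iff.mp (hBS (B.inv_mem hy)) r).mp hr
      simpa using this
    have e : r * y = y * (y⁻¹ * r * y) := by group
    rw [← cj_mul, e, cj_mul, mem_Nm.mp (hSM _ hr')]
  have hSF : S ≤ Nm F := fun r hr => Nm_Ff_of_forall (hSnorm r hr)
  have hSD : S ≤ Nm D := fun r hr => Nm_Dd_of_forall (hSnorm r hr)
  have hSQc : S ≤ Nm Qc := by
    intro r hr
    rw [← hCzF]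
    exact Nm_Cz (hSF hr)
  have hBF : B ≤ Nm F := fun y hy => self_Nm_Ff hy
  have hBD : B ≤ Nm D := fun y hy => self_Nm_Dd hy
  have hBQc : B ≤ Nm Qc := fun y hy => self_Nm_Dd hy
  have hne : D ≠ F := by
    intro hDFe
    apply hBQ
    intro y hy
    have h1 : cj y M ≤ D := by
      rw [hDFe]
      exact cj_le_Ff M hy
    have h2 : D ≤ cj y M := Dd_le_cj M hy
    have h3 : M ≤ D := by
      rw [hDFe]
      exact hMF
    have h4 : D = M := le_antisymm hDM h3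
    have h5 : y ∈ Nm M := by
      rw [mem_Nm]
      rw [← h4]
      exact le_antisymm (h4 ▸ h1) (h4 ▸ h2)
    have := Nm_Cz h5
    rwa [hCM] at this
  by_cases hcase : F ⊓ Qc = D
  swap
  · refine ⟨F ⊓ Qc, hF.inf hQc, ?_, fun r hr => Nm_inf (hSF hr) (hSQc hr),
      fun r hr => Nm_inf (hBF hr) (hBQc hr), le_inf hDF hDQc, fun h => hcase h.symm⟩
    have h1 : F ⊓ Qc ≤ Cz F := inf_le_right.trans hCzF.ge
    exact h1.trans (Cz_antitone inf_le_left)
  -- the main case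
  set K := (F ⊓ B) ⊔ D with hKdef
  have hFBD : F ⊓ B ≤ Cz D := inf_le_left.trans hFCzD
  have hKset : (K : Set G) = ((F ⊓ B : Subgroup G) : Set G) * (D : Set G) :=
    coe_sup_eq_mul_of_commute hFBD
  have hKab : K ≤ Cz K := by
    rw [hKdef, Cz_sup]
    refine sup_le (le_inf ?_ hFBD) (le_inf (le_Cz_comm hFBD) hDab)
    exact (inf_le_right.trans hBab).trans (Cz_antitone inf_le_right)
  have hKF : K ≤ F := sup_le inf_le_left hDF
  have hDK : D ≤ K := le_sup_right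
  have hFMB : F ≤ M ⊔ B := by
    apply iSup_le
    intro y x hx
    rw [mem_cj] at hx
    have e : x = y * ((y : G)⁻¹ * x * y) * (y : G)⁻¹ := by group
    rw [e]
    exact Subgroup.mul_mem _ (Subgroup.mul_mem _ (Subgroup.mem_sup_right y.2)
      (Subgroup.mem_sup_left hx)) (Subgroup.mem_sup_right (B.inv_mem y.2))
  have hFset : ∀ f ∈ F, ∃ m ∈ M, ∃ b ∈ F ⊓ B, m * b = f := by
    intro f hf
    have h1 : f ∈ ((M ⊔ B : Subgroup G) : Set G) := hFMB hf
    rw [hperm] at h1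
    obtain ⟨m, hm, b, hb, rfl⟩ := h1
    refine ⟨m, hm, b, ⟨?_, hb⟩, rfl⟩
    have := F.mul_mem (F.inv_mem (hMF hm)) hf
    simpa using this
  have hQK : Q ⊓ K ≤ D := by
    rintro x ⟨hx1, hx2⟩
    have hx2' : x ∈ (K : Set G) := hx2
    rw [hKset] at hx2'
    obtain ⟨b, hb, d, hd, rfl⟩ := hx2'
    have hdQ : d ∈ Q := hZQ (hDM hd)
    have hbQ : b ∈ Q := by
      have := Q.mul_mem hx1 (Q.inv_mem hdQ)
      simpa using this
    have hbQc : b ∈ Qc := by
      rw [hQcdef, mem_Dd]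
      intro y hy
      have hc : y * b = b * y := (mem_Cz.mp (hBab hb.2)) y hy
      have e : y⁻¹ * b * y = b := by
        rw [mul_assoc, ← hc]
        group
      rw [e]
      exact hbQ
    have hbD : b ∈ D := by
      rw [← hcase]
      exact ⟨hb.1, hbQc⟩
    exact D.mul_mem hbD hd
  have hQF : Q ⊓ F ≤ M := by
    rintro x ⟨hx1, hx2⟩
    obtain ⟨m, hm, b, hb, rfl⟩ := hFset x hx2
    have hbQ : b ∈ Q := by
      have := Q.mul_mem (Q.inv_mem (hZQ hm)) hx1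
      simpa using this
    have hbK : b ∈ K := Subgroup.mem_sup_left hb
    exact M.mul_mem hm (hDM (hQK ⟨hbQ, hbK⟩))
  have hMQc : M ⊓ Qc = D := by
    apply le_antisymm
    · rw [← hcase]
      exact inf_le_inf hMF le_rfl
    · exact le_inf hDM hDQc
  have hMK : M ⊓ K = D := by
    apply le_antisymm
    · exact (inf_le_inf hZQ le_rfl).trans hQK
    · exact le_inf hDM hDK
  have hCzDeq : Cz D = F ⊔ Qc := by
    rw [← hcase, hF.Cz_inf hQc, hCzF, hCzQc, sup_comm]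
  have hQD : Q ≤ Cz D := le_Cz_comm hDM
  have hQeq : M ⊔ Qc = Q := by
    apply le_antisymm (sup_le hZQ hQcQ)
    intro x hx
    have h1 : x ∈ ((F ⊔ Qc : Subgroup G) : Set G) := by
      rw [← hCzDeq]
      exact hQD hx
    rw [hF.coe_sup hQc] at h1
    obtain ⟨f, hf, c, hc, rfl⟩ := h1
    have hfQ : f ∈ Q := by
      have := Q.mul_mem hx (Q.inv_mem (hQcQ hc))
      simpa using this
    exact Subgroup.mul_mem _ (Subgroup.mem_sup_left (hQF ⟨hfQ, hf⟩)) (Subgroup.mem_sup_right hc)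
  have hl1 : Nat.card Q * Nat.card D = Nat.card M * Nat.card Qc := by
    have := (hMm.lattice hQc).2.2.1
    rwa [hQeq, hMQc] at this
  have hmeasF : meas Q = meas F := le_antisymm (hF Q) (hQm F)
  have hl2 : Nat.card Q * Nat.card M = Nat.card F * Nat.card Qc := by
    unfold meas at hmeasF
    rwa [hCzF] at hmeasF
  have hl3 : Nat.card F * Nat.card D = Nat.card M * Nat.card M := by
    apply Nat.eq_of_mul_eq_mul_right (Nat.card_pos (α := Qc))
    calc Nat.card F * Nat.card D * Nat.card Qc = (Nat.card F * Nat.card Qc) * Nat.card D := by ring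
      _ = (Nat.card Q * Nat.card M) * Nat.card D := by rw [hl2]
      _ = (Nat.card Q * Nat.card D) * Nat.card M := by ring
      _ = (Nat.card M * Nat.card Qc) * Nat.card M := by rw [hl1]
      _ = Nat.card M * Nat.card M * Nat.card Qc := by ring
  have hFsetK : (F : Set G) = (M : Set G) * (K : Set G) := by
    apply Set.Subset.antisymm
    · intro f hf
      obtain ⟨m, hm, b, hb, rfl⟩ := hFset f hf
      exact ⟨m, hm, b, Subgroup.mem_sup_left hb, rfl⟩
    · rintro _ ⟨m, hm, k, hk, rfl⟩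
      exact F.mul_mem (hMF hm) (hKF hk)
  have hl4 : Nat.card F * Nat.card D = Nat.card M * Nat.card K := by
    have := card_mul_set M K
    rw [← hFsetK, hMK] at this
    exact this
  have hKM : Nat.card K = Nat.card M := by
    apply Nat.eq_of_mul_eq_mul_left (Nat.card_pos (α := M))
    rw [← hl4, hl3]
  have hQcK : Qc ⊓ K = D := by
    apply le_antisymm
    · exact (inf_le_inf hQcQ le_rfl).trans hQK
    · exact le_inf hDQc hDK
  have hl5 : Nat.card Qc * Nat.card K ≤ Nat.card ↥(Qc ⊔ K) * Nat.card D := by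
    have := card_mul_le_sup_inf Qc K
    rwa [hQcK] at this
  have hKCz : K ≤ Cz (Qc ⊔ K) := by
    rw [Cz_sup, hCzQc]
    exact le_inf hKF hKab
  have hl6 : Nat.card K ≤ Nat.card (Cz (Qc ⊔ K)) := Subgroup.card_le_of_le hKCz
  have hmeasX : meas Q ≤ meas (Qc ⊔ K) := by
    apply Nat.le_of_mul_le_mul_right _ (Nat.card_pos (α := D))
    unfold meas
    calc Nat.card Q * Nat.card (Cz Q) * Nat.card D
        = (Nat.card Q * Nat.card D) * Nat.card M := by rw [hMdef]; ring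
      _ = (Nat.card M * Nat.card Qc) * Nat.card M := by rw [hl1]
      _ = (Nat.card Qc * Nat.card K) * Nat.card K := by rw [hKM]; ring
      _ ≤ (Nat.card ↥(Qc ⊔ K) * Nat.card D) * Nat.card K := Nat.mul_le_mul_right _ hl5
      _ ≤ (Nat.card ↥(Qc ⊔ K) * Nat.card D) * Nat.card (Cz (Qc ⊔ K)) :=
          Nat.mul_le_mul_left _ hl6
      _ = Nat.card ↥(Qc ⊔ K) * Nat.card (Cz (Qc ⊔ K)) * Nat.card D := by ring
  have hX2 : ChermakDelgado.IsMax (Qc ⊔ K) := fun Y => (hQm Y).trans hmeasX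
  have hKeq : K = Cz (Qc ⊔ K) := by
    apply Subgroup.eq_of_le_of_card_ge hKCz
    have h1 : meas (Qc ⊔ K) ≤ meas Q := hQm _
    have h2 : Nat.card ↥(Qc ⊔ K) * Nat.card (Cz (Qc ⊔ K)) * Nat.card D
        ≤ Nat.card ↥(Qc ⊔ K) * Nat.card D * Nat.card K := by
      calc Nat.card ↥(Qc ⊔ K) * Nat.card (Cz (Qc ⊔ K)) * Nat.card D
          ≤ meas Q * Nat.card D := Nat.mul_le_mul_right _ h1
        _ = (Nat.card Q * Nat.card D) * Nat.card M := by unfold meas; rw [hMdef]; ring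
        _ = (Nat.card M * Nat.card Qc) * Nat.card M := by rw [hl1]
        _ = (Nat.card Qc * Nat.card K) * Nat.card K := by rw [hKM]; ring
        _ ≤ (Nat.card ↥(Qc ⊔ K) * Nat.card D) * Nat.card K := Nat.mul_le_mul_right _ hl5
    have h3 : (Nat.card ↥(Qc ⊔ K) * Nat.card D) * Nat.card (Cz (Qc ⊔ K))
        ≤ (Nat.card ↥(Qc ⊔ K) * Nat.card D) * Nat.card K := by
      calc _ = Nat.card ↥(Qc ⊔ K) * Nat.card (Cz (Qc ⊔ K)) * Nat.card D := by ring
        _ ≤ _ := h2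
    exact Nat.le_of_mul_le_mul_left h3 (Nat.mul_pos Nat.card_pos Nat.card_pos)
  have hK : ChermakDelgado.IsMax K := by
    rw [hKeq]
    exact hX2.cz
  have hBK : B ≤ Nm K := by
    intro y hy
    refine Nm_sup (Nm_inf (hBF hy) ?_) (hBD hy)
    exact Subgroup.le_normalizer hy
  refine ⟨Dd S K, isMax_Dd S hK, ?_, fun r hr => self_Nm_Dd hr,
    fun y hy => Nm_Dd (hBS hy) (hBK hy), ?_, ?_⟩
  · have h1 : Dd S K ≤ K := Dd_le S K
    exact (h1.trans hKab).trans (Cz_antitone h1)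
  · intro x hx
    rw [mem_Dd]
    intro r hr
    have hr' : r⁻¹ ∈ S := S.inv_mem hr
    have := (Subgroup.mem_normalizer_iff.mp (hSD hr') x).mp hx
    apply hDK
    simpa using this
  · -- strictness
    intro hDW
    have hN1 : (S ⊔ B) ⊔ F ≤ Nm D :=
      sup_le (sup_le hSD hBD) (hFCzD.trans (Cz_le_Nm D))
    have hN2 : (S ⊔ B) ⊔ F ≤ Nm F :=
      sup_le (sup_le hSF hBF) Subgroup.le_normalizer
    obtain ⟨v, hvF, hvD, hv⟩ := exists_central_section hG hN1 hN2 hDF le_sup_right hne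
    obtain ⟨m, hm, b, hb, rfl⟩ := hFset v hvF
    have hmD : m ∈ D := by
      rw [hDdef, mem_Dd]
      intro y hy
      have hyN : y⁻¹ ∈ (S ⊔ B) ⊔ F :=
        Subgroup.mem_sup_left (Subgroup.mem_sup_right (B.inv_mem hy))
      have h1 := hv _ hyN
      have hc : b * y = y * b := (mem_Cz.mp (hBab hb.2)) y hy |>.symm
      have e : y⁻¹ * (m * b) * y⁻¹⁻¹ * (m * b)⁻¹ = (y⁻¹ * m * y) * m⁻¹ := by
        calc y⁻¹ * (m * b) * y⁻¹⁻¹ * (m * b)⁻¹ = y⁻¹ * m * (b * y) * b⁻¹ * m⁻¹ := by group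
          _ = y⁻¹ * m * (y * b) * b⁻¹ * m⁻¹ := by rw [hc]
          _ = _ := by group
      rw [e] at h1
      have h2 := M.mul_mem (hDM h1) hm
      simpa using h2
    have hvK : m * b ∈ K := K.mul_mem (hDK hmD) (Subgroup.mem_sup_left hb)
    apply hvD
    rw [hDW, mem_Dd]
    intro r hr
    have hrN : r⁻¹ ∈ (S ⊔ B) ⊔ F :=
      Subgroup.mem_sup_left (Subgroup.mem_sup_left (S.inv_mem hr))
    have h1 := hv _ hrN
    have e : r⁻¹ * (m * b) * r = (r⁻¹ * (m * b) * r⁻¹⁻¹ * (m * b)⁻¹) * (m * b) := by group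
    rw [e]
    exact K.mul_mem (hDK h1) hvK

/-! ### Lemma R -/

theorem lemma_R {p : ℕ} [Fact p.Prime] (hG : IsPGroup p G) {S B : Subgroup G}
    (hBS : B ≤ Nm S) (hBab : B ≤ Cz B)
    (hperm : ∀ Q : Subgroup G, IsMinimalCentrallyLarge Q →
      ((Cz Q ⊔ B : Subgroup G) : Set G) = (Cz Q : Set G) * (B : Set G))
    (hE : ∃ E : Subgroup G, IsMinimalCentrallyLarge E ∧ S ≤ Nm E) :
    ∃ Q : Subgroup G, IsMinimalCentrallyLarge Q ∧ S ≤ Nm Q ∧ B ≤ Nm Q := by
  let T : Set (Subgroup G) := {Q | IsMinimalCentrallyLarge Q ∧ S ≤ Nm Q}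
  obtain ⟨E, hE1, hE2⟩ := hE
  have : Nonempty T := ⟨⟨E, hE1, hE2⟩⟩
  obtain ⟨⟨Q, hQ1, hQ2⟩, hQ⟩ := Finite.exists_max (fun X : T => Nat.card (Dd B (Cz X.1)))
  refine ⟨Q, hQ1, hQ2, ?_⟩
  by_contra hBQ
  obtain ⟨W, hW, hWab, hSW, hBW, hDW, hne⟩ := key_step hG hQ1 hQ2 hBS hBab (hperm Q hQ1) hBQ
  obtain ⟨h1, h2⟩ := replacement hQ1 hW hWab
  have h3 := hQ ⟨_, h1, fun r hr => replacement_Nm (hQ2 hr) (hSW hr)⟩
  have h4 : W ≤ Dd B (Cz ((Q ⊓ Cz W) ⊔ W)) := by
    intro x hx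
    rw [mem_Dd]
    intro y hy
    apply h2
    have := (Subgroup.mem_normalizer_iff.mp (hBW (B.inv_mem hy)) x).mp hx
    simpa using this
  have h5 : Nat.card W ≤ Nat.card (Dd B (Cz ((Q ⊓ Cz W) ⊔ W))) := Subgroup.card_le_of_le h4
  have h6 : Nat.card (Dd B (Cz Q)) ≥ Nat.card W := h5.trans h3
  exact hne (Subgroup.eq_of_le_of_card_ge hDW h6)

/-! ### The family of largest abelian subgroups and centres -/

omit [Finite G] in
theorem cj_maxAb {A : Subgroup G} (hA : A ∈ maxAbelianSubgroups G) (g : G) :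
    cj g A ∈ maxAbelianSubgroups G := by
  refine ⟨?_, fun B hB => ?_⟩
  · rw [ChermakDelgado.isMulCommutative_iff, ← cj_Cz]
    exact cj_mono _ (ChermakDelgado.isMulCommutative_iff.mp hA.1)
  · rw [card_cj]
    exact hA.2 B hB

theorem cj_mcl {R : Subgroup G} (hR : IsMinimalCentrallyLarge R) (g : G) :
    IsMinimalCentrallyLarge (cj g R) := by
  have hcl : ∀ (h : G) (X : Subgroup G), IsCentrallyLarge X → IsCentrallyLarge (cj h X) := by
    intro h X hX
    rw [isCentrallyLarge_iff]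
    refine ⟨(cl_isMax hX).conj h, ?_⟩
    rw [← cj_Cz]
    exact cj_mono _ (cl_Cz_le hX)
  refine ⟨hcl g R hR.1, fun R' hR' hR'c => ?_⟩
  have h1 : cj g⁻¹ R' ≤ R := by
    rw [cj_le_iff, inv_inv]
    exact hR'
  have h2 := hR.2 _ h1 (hcl g⁻¹ R' hR'c)
  rw [← h2, ← cj_mul]
  simp [cj_one]

/-- The family. -/
def Uu (G : Type*) [Group G] : Set (Subgroup G) :=
  maxAbelianSubgroups G ∪ {B | ∃ R, IsMinimalCentrallyLarge R ∧ B = Cz R}

theorem Uu_cj {B : Subgroup G} (hB : B ∈ Uu G) (g : G) : cj g B ∈ Uu G := by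
  rcases hB with hB | ⟨R, hR, rfl⟩
  · exact Or.inl (cj_maxAb hB g)
  · exact Or.inr ⟨_, cj_mcl hR g, cj_Cz g R⟩

theorem Uu_ab {B : Subgroup G} (hB : B ∈ Uu G) : B ≤ Cz B := by
  rcases hB with hB | ⟨R, hR, rfl⟩
  · exact ChermakDelgado.isMulCommutative_iff.mp hB.1
  · have := cl_Cz_le hR.1
    exact this.trans ((cl_isMax hR.1).Cz_Cz.symm.le)

theorem Uu_perm {B : Subgroup G} (hB : B ∈ Uu G) {Q : Subgroup G}
    (hQ : IsMinimalCentrallyLarge Q) :
    ((Cz Q ⊔ B : Subgroup G) : Set G) = (Cz Q : Set G) * (B : Set G) := by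
  rcases hB with hB | ⟨R, hR, rfl⟩
  · exact (cl_maxAb_centralizer hQ.1 hB).2
  · exact (cl_isMax hQ.1).coe_Cz_sup (cl_isMax hR.1)

theorem exists_mcl : ∃ Q : Subgroup G, IsMinimalCentrallyLarge Q := by
  obtain ⟨R, hR⟩ := exists_isCentrallyLarge (G := G)
  obtain ⟨Q, hQ, -⟩ := exists_minimal_le hR
  exact ⟨Q, hQ⟩

/-- The main theorem: a minimal centrally large subgroup normalized by the whole family. -/
theorem exists_mcl_normalized {p : ℕ} [Fact p.Prime] (hG : IsPGroup p G) :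
    ∃ Q : Subgroup G, IsMinimalCentrallyLarge Q ∧ ∀ B ∈ Uu G, B ≤ Nm Q := by
  classical
  haveI : Group.IsNilpotent G := hG.isNilpotent
  let C : Set (Subgroup G) := {S | S = sSup {B | B ∈ Uu G ∧ B ≤ S} ∧
    ∃ Q : Subgroup G, IsMinimalCentrallyLarge Q ∧ S ≤ Nm Q}
  have hbot : (⊥ : Subgroup G) ∈ C := by
    refine ⟨le_antisymm bot_le (sSup_le fun B hB => hB.2), ?_⟩
    obtain ⟨Q, hQ⟩ := exists_mcl (G := G)
    exact ⟨Q, hQ, bot_le⟩
  have : Nonempty C := ⟨⟨⊥, hbot⟩⟩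
  obtain ⟨⟨S, hS1, Q, hQ, hSQ⟩, hSmax⟩ := Finite.exists_max (fun X : C => Nat.card X.1)
  by_cases hall : ∀ B ∈ Uu G, B ≤ S
  · exact ⟨Q, hQ, fun B hB => (hall B hB).trans hSQ⟩
  exfalso
  push Not at hall
  obtain ⟨B₀, hB₀, hB₀S⟩ := hall
  let T : Set (Subgroup G) := {N | S ≤ N ∧ ∀ B ∈ Uu G, B ≤ N → B ≤ S}
  have : Nonempty T := ⟨⟨S, le_rfl, fun _ _ h => h⟩⟩
  obtain ⟨⟨N, hN1, hN2⟩, hNmax⟩ := Finite.exists_max (fun X : T => Nat.card X.1)
  have hNtop : N ≠ ⊤ := by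
    rintro rfl
    exact hB₀S (hN2 B₀ hB₀ le_top)
  have hNlt : N < Nm N := by
    have hnc := Group.normalizerCondition_of_isNilpotent (G := G)
    exact hnc N (lt_top_iff_ne_top.mpr hNtop)
  have hex : ∃ B ∈ Uu G, B ≤ Nm N ∧ ¬ B ≤ S := by
    by_contra hno
    push Not at hno
    have h1 : Nm N ∈ T := ⟨hN1.trans hNlt.le, hno⟩
    have h2 := hNmax ⟨_, h1⟩
    have h3 := Subgroup.eq_of_le_of_card_ge hNlt.le h2
    exact hNlt.ne h3
  obtain ⟨B, hB, hBN, hBS⟩ := hex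
  have hSset : ∀ B' ∈ Uu G, B' ≤ N → B' ≤ S := hN2
  have hBnormS : B ≤ Nm S := by
    intro y hy
    rw [mem_Nm]
    have hle : ∀ g ∈ Nm N, cj g S ≤ S := by
      intro g hg
      rw [cj_le_iff, hS1]
      apply sSup_le
      rintro B' ⟨hB'1, hB'2⟩
      rw [← cj_le_iff]
      have h2 : cj g B' ≤ N := by
        have := cj_mono g (hB'2.trans hN1)
        rwa [mem_Nm.mp hg] at this
      have h3 := hN2 _ (Uu_cj hB'1 g) h2
      exact h3.trans (le_of_eq hS1)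
    exact Subgroup.eq_of_le_of_card_ge (hle y (hBN hy)) (by rw [card_cj])
  obtain ⟨Q', hQ', h1, h2⟩ := lemma_R hG hBnormS (Uu_ab hB) (fun _ h => Uu_perm hB h) ⟨Q, hQ, hSQ⟩
  have hnew : S ⊔ B ∈ C := by
    refine ⟨le_antisymm (sup_le ?_ ?_) (sSup_le fun X hX => hX.2), Q', hQ', sup_le h1 h2⟩
    · rw [hS1]
      apply sSup_le
      rintro X ⟨hX1, hX2⟩
      refine le_sSup ⟨hX1, ?_⟩
      have : S = sSup {B | B ∈ Uu G ∧ B ≤ S} := hS1
      rw [← this]
      exact hX2.trans le_sup_left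
    · exact le_sSup ⟨hB, le_sup_right⟩
  have h3 := hSmax ⟨_, hnew⟩
  have h4 := Subgroup.eq_of_le_of_card_ge (le_sup_left : S ≤ S ⊔ B) h3
  apply hBS
  rw [h4]
  exact le_sup_right

end Cfsg.Agent.Lib.CDNormal
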