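import Mathlib
import Cfsg.Agent.Lib.SmallGroups2
import Cfsg.Agent.Lib.Small168
import Cfsg.Agent.Lib.CITCount

/-!
# More counting tools
-/

set_option autoImplicit false

namespace Cfsg.Agent.Lib.CITCount2

open Subgroup Cfsg.Agent.Lib.SmallGroups2 Cfsg.Agent.Lib.Small168

variable {G : Type*} [Group G] [Finite G]

/-- Four disjoint sets. -/
theorem sum_card_le4 (Q₁ Q₂ Q₃ Q₄ : G → Prop) (h12 : ∀ x, Q₁ x → ¬ Q₂ x) (h13 : ∀ x, Q₁ x → ¬ Q₃ x)
    (h14 : ∀ x, Q₁ x → ¬ Q₄ x) (h23 : ∀ x, Q₂ x → ¬ Q₃ x) (h24 : ∀ x, Q₂ x → ¬ Q₄ x) (h34 : ∀ x, Q₃ x → ¬ Q₄ x) :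
    Nat.card {x // Q₁ x} + Nat.card {x // Q₂ x} + Nat.card {x // Q₃ x} + Nat.card {x // Q₄ x} ≤ Nat.card G := by
  let f : (({x // Q₁ x} ⊕ {x // Q₂ x}) ⊕ {x // Q₃ x}) ⊕ {x // Q₄ x} → G := fun a => match a with
    | Sum.inl (Sum.inl (Sum.inl y)) => y.1
    | Sum.inl (Sum.inl (Sum.inr y)) => y.1
    | Sum.inl (Sum.inr y) => y.1
    | Sum.inr y => y.1
  have hf : Function.Injective f := by
    rintro (((⟨a, ha⟩ | ⟨a, ha⟩) | ⟨a, ha⟩) | ⟨a, ha⟩) (((⟨b, hb⟩ | ⟨b, hb⟩) | ⟨b, hb⟩) | ⟨b, hb⟩) hab <;>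
      simp only [f] at hab <;> subst hab <;> first
        | rfl
        | exact absurd hb (h12 _ ha)
        | exact absurd hb (h13 _ ha)
        | exact absurd hb (h14 _ ha)
        | exact absurd hb (h23 _ ha)
        | exact absurd hb (h24 _ ha)
        | exact absurd hb (h34 _ ha)
        | exact absurd ha (h12 _ hb)
        | exact absurd ha (h13 _ hb)
        | exact absurd ha (h14 _ hb)
        | exact absurd ha (h23 _ hb)
        | exact absurd ha (h24 _ hb)
        | exact absurd ha (h34 _ hb)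
  have := Nat.card_le_card_of_injective f hf
  rwa [Nat.card_sum, Nat.card_sum, Nat.card_sum] at this

/-- The centralizer of a subgroup of prime order is that of any nontrivial element. -/
theorem centralizer_eq_of_mem {q : ℕ} (hq : q.Prime) {Q : Subgroup G} (hQ : Nat.card Q = q) {r : G} (hr : r ∈ Q) (hr1 : r ≠ 1) :
    centralizer ({r} : Set G) = centralizer (Q : Set G) := by
  have hz := zpowers_eq_of_mem_of_ne_one hq hQ hr hr1
  ext x
  rw [mem_centralizer_singleton_iff, mem_centralizer_iff]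
  constructor
  · intro h y hy
    have hy' : y ∈ zpowers r := by rw [hz]; exact hy
    obtain ⟨k, rfl⟩ := Subgroup.mem_zpowers_iff.1 hy'
    exact ((Commute.zpow_left (show Commute r x from h.symm) k))
  · intro h
    exact (h r hr).symm

/-- The Sylow count from the order of the centralizer. -/
theorem sylow_count_data [IsSimpleGroup G] (hG : ¬ IsMulCommutative G) {q : ℕ} [Fact q.Prime] (P : Sylow q G)
    (hP : Nat.card (P : Subgroup G) = q) :
    ∃ e, e ∣ q - 1 ∧ e ≠ 1 ∧ Nat.card (Sylow q G) * (Nat.card (centralizer ((P : Subgroup G) : Set G)) * e) = Nat.card G := by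
  have hq : q.Prime := Fact.out
  have hpG : q ∣ Nat.card G := by
    rw [← hP]; exact Subgroup.card_subgroup_dvd_card _
  have he1 := relIndex_dvd_of_prime_card P hP
  have he2 := card_mul_relIndex (Subgroup.centralizer_le_normalizer ((P : Subgroup G) : Set G))
  refine ⟨_, he1, ?_, ?_⟩
  · intro he
    rw [he, mul_one] at he2
    apply not_normalizer_le_centralizer hG hpG P
    have := Subgroup.eq_of_le_of_card_ge (Subgroup.centralizer_le_normalizer ((P : Subgroup G) : Set G)) (le_of_eq he2.symm)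
    rw [← this]
  · rw [he2, mul_comm]
    exact card_normalizer_mul_card_sylow P

/-- Conjugate Sylow subgroups of prime order have centralizers of the same order. -/
theorem card_centralizer_sylow_eq {q : ℕ} [Fact q.Prime] (P Q : Sylow q G) :
    Nat.card (centralizer ((P : Subgroup G) : Set G)) = Nat.card (centralizer ((Q : Subgroup G) : Set G)) := by
  obtain ⟨g, rfl⟩ := MulAction.exists_smul_eq G P Q
  apply Nat.card_congr
  refine ⟨fun a => ⟨g * a.1 * g⁻¹, ?_⟩, fun b => ⟨g⁻¹ * b.1 * g, ?_⟩, ?_, ?_⟩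
  · rw [mem_centralizer_iff]
    intro y hy
    rw [Sylow.coe_subgroup_smul] at hy
    have hy' : g⁻¹ * y * g ∈ (P : Subgroup G) := by
      have := Subgroup.mem_pointwise_smul_iff_inv_smul_mem.1 hy
      simpa [MulAut.smul_def, MulAut.conj_apply] using this
    have h1 := mem_centralizer_iff.1 a.2 _ hy'
    calc y * (g * a.1 * g⁻¹) = g * ((g⁻¹ * y * g) * a.1) * g⁻¹ := by group
      _ = g * (a.1 * (g⁻¹ * y * g)) * g⁻¹ := by rw [h1]
      _ = _ := by group
  · rw [mem_centralizer_iff]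
    intro y hy
    have hy' : g * y * g⁻¹ ∈ ((g • P : Sylow q G) : Subgroup G) := by
      rw [Sylow.coe_subgroup_smul]
      exact Subgroup.smul_mem_pointwise_smul _ (MulAut.conj g) _ hy
    have h1 := mem_centralizer_iff.1 b.2 _ hy'
    have h2 : g * (y * (g⁻¹ * b.1 * g)) * g⁻¹ = g * ((g⁻¹ * b.1 * g) * y) * g⁻¹ := by
      calc g * (y * (g⁻¹ * b.1 * g)) * g⁻¹ = (g * y * g⁻¹) * b.1 := by group
        _ = b.1 * (g * y * g⁻¹) := h1
        _ = _ := by group
    exact mul_left_cancel (mul_right_cancel h2)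
  · intro a
    apply Subtype.ext
    change g⁻¹ * (g * a.1 * g⁻¹) * g = a.1
    group
  · intro b
    apply Subtype.ext
    change g * (g⁻¹ * b.1 * g) * g⁻¹ = b.1
    group

end Cfsg.Agent.Lib.CITCount2
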