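import Mathlib
import Cfsg.Agent.Lib.FrobAction
import Cfsg.Agent.Lib.PCore
import Cfsg.Agent.Lib.SuperSolv2

/-!
Groups in which every element has prime power order (`CP` or EPPO groups): solvable ones have at most two primes
(Higman), the solvable radical of a nonsolvable one is a `p`-group, unique minimal normal subgroup modulo the radical
is simple.
-/

set_option autoImplicit false
set_option synthInstance.maxHeartbeats 400000

open Cfsg

namespace Cfsg.Agent.Lib.CPGroups

open Cfsg.Agent.Lib.FrobAction Cfsg.Agent.Lib.PCore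

/-- Every nonidentity element has prime power order. -/
def CP (G : Type*) [Group G] : Prop := ∀ x : G, x ≠ 1 → IsPrimePow (orderOf x)

section basic

variable {G : Type*} [Group G]

lemma CP.of_subgroup (h : CP G) (H : Subgroup G) : CP H := by
  intro x hx
  rw [← Subgroup.orderOf_coe]
  exact h x (fun h' => hx (Subtype.ext h'))

lemma CP.of_surjective [Finite G] {Q : Type*} [Group Q] (f : G →* Q) (hf : Function.Surjective f)
    (h : CP G) : CP Q := by
  intro y hy
  obtain ⟨x, rfl⟩ := hf y
  have hx : x ≠ 1 := by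
    rintro rfl
    exact hy (map_one f)
  exact (h x hx).dvd (orderOf_map_dvd f x) (fun h1 => hy (orderOf_eq_one_iff.mp h1))

lemma CP.prime_unique [Finite G] (h : CP G) {x y : G} (hc : Commute x y) {p q : ℕ}
    (hp : p.Prime) (hq : q.Prime) (hpx : p ∣ orderOf x) (hqy : q ∣ orderOf y) : p = q := by
  by_contra hne
  have h1 : orderOf (x ^ (orderOf x / p)) = p := orderOf_pow_orderOf_div (orderOf_pos x).ne' hpx
  have h2 : orderOf (y ^ (orderOf y / q)) = q := orderOf_pow_orderOf_div (orderOf_pos y).ne' hqy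
  have hc' : Commute (x ^ (orderOf x / p)) (y ^ (orderOf y / q)) := hc.pow_pow _ _
  have hcop : Nat.Coprime (orderOf (x ^ (orderOf x / p))) (orderOf (y ^ (orderOf y / q))) := by
    rw [h1, h2]
    exact (Nat.coprime_primes hp hq).mpr hne
  have h3 := hc'.orderOf_mul_eq_mul_orderOf_of_coprime hcop
  rw [h1, h2] at h3
  have hne1 : x ^ (orderOf x / p) * y ^ (orderOf y / q) ≠ 1 := by
    intro h4
    rw [h4, orderOf_one] at h3
    have := hp.two_le
    have := hq.two_le
    nlinarith
  have h5 := h _ hne1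
  rw [h3, isPrimePow_nat_iff] at h5
  obtain ⟨r, k, hr, hk, hrk⟩ := h5
  have h6 : p ∣ r ^ k := hrk ▸ dvd_mul_right p q
  have h7 : q ∣ r ^ k := hrk ▸ dvd_mul_left q p
  have h8 := (Nat.prime_dvd_prime_iff_eq hp hr).mp (hp.dvd_of_dvd_pow h6)
  have h9 := (Nat.prime_dvd_prime_iff_eq hq hr).mp (hq.dvd_of_dvd_pow h7)
  exact hne (h8.trans h9.symm)

lemma prime_dvd_orderOf_of_mem {N : Subgroup G} {r : ℕ} (hr : r.Prime) (hN : IsPGroup r N) {x : G}
    (hx : x ∈ N) (hne : x ≠ 1) : r ∣ orderOf x := by
  have : Fact r.Prime := ⟨hr⟩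
  obtain ⟨k, hk⟩ := (IsPGroup.iff_orderOf.mp hN) ⟨x, hx⟩
  have h1 : orderOf x = r ^ k := by rw [← Subgroup.orderOf_coe]  at hk; exact hk
  rw [h1]
  have hk0 : k ≠ 0 := by
    rintro rfl
    rw [pow_zero, orderOf_eq_one_iff] at h1
    exact hne h1
  exact dvd_pow_self r hk0

/-- Elements of the centre of a normal `r`-subgroup. -/
lemma exists_ne_one_of_ne_bot {H : Subgroup G} (h : H ≠ ⊥) : ∃ x ∈ H, x ≠ 1 := by
  obtain ⟨a, ha⟩ := Subgroup.ne_bot_iff_exists_ne_one.mp h
  exact ⟨a.1, a.2, fun h' => ha (Subtype.ext h')⟩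

end basic

section action

variable {G : Type*} [Group G] [Finite G]

/-- The abelian normal subgroup inside a nontrivial normal `r`-subgroup. -/
noncomputable def centerOf (N : Subgroup G) : Subgroup G := (Subgroup.center N).map N.subtype

instance centerOf_normal (N : Subgroup G) [N.Normal] : (centerOf N).Normal :=
  ConjAct.normal_of_characteristic_of_normal

lemma centerOf_le (N : Subgroup G) : centerOf N ≤ N := by
  rintro _ ⟨x, _, rfl⟩
  exact x.2

lemma centerOf_comm (N : Subgroup G) (a b : centerOf N) : a * b = b * a := by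
  obtain ⟨_, ⟨x, hx, rfl⟩⟩ := a
  obtain ⟨_, ⟨y, hy, rfl⟩⟩ := b
  apply Subtype.ext
  show (x : G) * y = y * x
  have := (Subgroup.mem_center_iff.mp hy) x
  exact congrArg Subtype.val this

lemma centerOf_ne_bot {N : Subgroup G} {r : ℕ} (hr : r.Prime) (hN : IsPGroup r N) (hne : N ≠ ⊥) :
    centerOf N ≠ ⊥ := by
  have : Fact r.Prime := ⟨hr⟩
  have hnt : Nontrivial N := (Subgroup.nontrivial_iff_ne_bot N).mpr hne
  have hc := hN.center_nontrivial
  obtain ⟨z, hz⟩ := exists_ne (1 : Subgroup.center N)
  intro h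
  apply hz
  have h1 : ((z : N) : G) ∈ centerOf N := ⟨z, z.2, rfl⟩
  rw [h, Subgroup.mem_bot] at h1
  apply Subtype.ext
  apply Subtype.ext
  exact h1

/-- Every nontrivial element of a subgroup `P` of a CP group with a nontrivial normal `r`-subgroup for a different prime acts
without nontrivial fixed points. -/
lemma fpf_of_cp (hcp : CP G) {N : Subgroup G} [N.Normal] {r t : ℕ} (hr : r.Prime) (ht : t.Prime) (hrt : r ≠ t)
    (hN : IsPGroup r N) {x : G} (hx : x ≠ 1) (hxt : t ∣ orderOf x) (v : centerOf N)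
    (hv : MulAut.conjNormal x v = v) : v = 1 := by
  by_contra hne
  have hv1 : (v : G) ≠ 1 := fun h => hne (Subtype.ext h)
  have hvN : (v : G) ∈ N := centerOf_le N v.2
  have hrv := prime_dvd_orderOf_of_mem hr hN hvN hv1
  have hcomm : Commute (v : G) x := by
    have h1 : x * (v : G) * x⁻¹ = v := by
      have := congrArg Subtype.val hv
      rwa [MulAut.conjNormal_apply] at this
    show (v : G) * x = x * v
    calc (v : G) * x = (x * (v : G) * x⁻¹) * x := by rw [h1]
      _ = x * v := by group
  exact hrt (hcp.prime_unique hcomm hr ht hrv hxt)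

lemma eq_one_of_pow_eq_one_of_coprime {N : Subgroup G} {r : ℕ} (hr : r.Prime) (hN : IsPGroup r N)
    {k : ℕ} (hk : Nat.Coprime r k) {v : G} (hv : v ∈ N) (h : v ^ k = 1) : v = 1 := by
  have : Fact r.Prime := ⟨hr⟩
  obtain ⟨m, hm⟩ := (IsPGroup.iff_orderOf.mp hN) ⟨v, hv⟩
  have h1 : orderOf v = r ^ m := by rw [← Subgroup.orderOf_coe] at hm; exact hm
  have h2 : orderOf v ∣ k := orderOf_dvd_of_pow_eq_one h
  rw [h1] at h2
  have h3 : r ^ m = 1 := (hk.pow_left m).eq_one_of_dvd h2
  rw [h3] at h1
  exact orderOf_eq_one_iff.mp h1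

/-- Frattini step: a Sylow `t`-subgroup `P` of the preimage of a normal `t`-subgroup of `G ⧸ N`, with `G = N_G(P) N`. -/
lemma exists_frattini {N : Subgroup G} [N.Normal] {r t : ℕ} (hr : r.Prime) (ht : t.Prime) (hrt : r ≠ t)
    (hN : IsPGroup r N) (A : Subgroup (G ⧸ N)) [A.Normal] (hA : IsPGroup t A) (hAne : A ≠ ⊥) :
    ∃ P : Subgroup G, P ≠ ⊥ ∧ IsPGroup t P ∧ Subgroup.normalizer (P : Set G) ⊔ N = ⊤ := by
  have : Fact t.Prime := ⟨ht⟩
  have : Fact r.Prime := ⟨hr⟩
  let M : Subgroup G := A.comap (QuotientGroup.mk' N)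
  have hMnormal : M.Normal := Subgroup.Normal.comap inferInstance _
  have hMcard : Nat.card M = Nat.card A * Nat.card N := SuperSolv2.card_comap_mk N A
  obtain ⟨a, ha⟩ := IsPGroup.iff_card.mp hA
  obtain ⟨b, hb⟩ := IsPGroup.iff_card.mp hN
  have ha0 : a ≠ 0 := by
    rintro rfl
    rw [pow_zero] at ha
    exact hAne (Subgroup.card_eq_one.mp ha)
  obtain P0 : Sylow t M := Inhabited.default
  have hP0card : Nat.card P0 = t ^ a := by
    rw [Sylow.card_eq_multiplicity, hMcard, ha, hb,
      Nat.factorization_mul (pow_ne_zero _ ht.ne_zero) (pow_ne_zero _ hr.ne_zero),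
      Nat.factorization_pow, Nat.factorization_pow, ht.factorization]
    have : r.factorization t = 0 := Nat.factorization_eq_zero_of_not_dvd (fun h =>
      hrt ((Nat.prime_dvd_prime_iff_eq ht hr).mp h).symm)
    simp [this]
  let P : Subgroup G := (P0 : Subgroup M).map M.subtype
  have hPcard : Nat.card P = t ^ a := by
    have h1 : Nat.card P = Nat.card P0 :=
      (Nat.card_congr (Subgroup.equivMapOfInjective _ _ M.subtype_injective).toEquiv).symm
    rw [h1, hP0card]
  have hPt : IsPGroup t P := IsPGroup.of_card hPcard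
  have hNM : N ≤ M := by
    intro x hx
    show (QuotientGroup.mk' N) x ∈ A
    have h0 : (QuotientGroup.mk' N) x = 1 := (QuotientGroup.eq_one_iff x).mpr hx
    rw [h0]
    exact A.one_mem
  have hPM : P ≤ M := by
    rintro _ ⟨x, _, rfl⟩
    exact x.2
  refine ⟨P, ?_, hPt, ?_⟩
  · intro h
    rw [h] at hPcard
    simp only [Subgroup.card_bot] at hPcard
    have := Nat.one_lt_pow ha0 ht.one_lt
    omega
  · have h1 : Subgroup.normalizer (P : Set G) ⊔ M = ⊤ := Sylow.normalizer_sup_eq_top P0
    have hinf : P ⊓ N = ⊥ := disjoint_iff.mp (IsPGroup.disjoint_of_ne t r hrt.symm P N hPt hN)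
    have h2 := SuperSolv2.card_sup_mul_card_inf P N
    rw [hinf, Subgroup.card_bot, mul_one, hPcard, hb] at h2
    have h3 : P ⊔ N = M := by
      apply Subgroup.eq_of_le_of_card_ge (sup_le hPM hNM)
      rw [h2, hMcard, ha, hb]
    rw [← h3, ← sup_assoc, sup_eq_left.mpr Subgroup.le_normalizer] at h1
    exact h1

end action

/-- **Higman**: a solvable group in which every element has prime power order has order divisible by at most two primes. -/
theorem card_primeFactors_le_two (H : Type*) [Group H] [Finite H] [hs : Group.IsSolvable H] (hcp : CP H) :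
    (Nat.card H).primeFactors.card ≤ 2 := by
  by_contra hcard
  push Not at hcard
  have hnt : Nontrivial H := by
    rw [← Finite.one_lt_card_iff_nontrivial]
    have h1 : Nat.card H ≠ 1 := by
      intro h
      rw [h] at hcard
      simp at hcard
    have : 0 < Nat.card H := Nat.card_pos
    omega
  obtain ⟨r, hr, hNne⟩ := exists_pCore_ne_bot (G := H)
  have : Fact r.Prime := ⟨hr⟩
  set N := pCore r H with hNdef
  have hNp : IsPGroup r N := isPGroup_pCore r
  obtain ⟨b, hb⟩ := IsPGroup.iff_card.mp hNp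
  -- a prime different from r
  have hex : ∃ p ∈ (Nat.card H).primeFactors, p ∉ ({r} : Finset ℕ) := by
    apply Finset.exists_mem_notMem_of_card_lt_card
    simp only [Finset.card_singleton]
    omega
  obtain ⟨p0, hp0, hp0r⟩ := hex
  have hp0' := Nat.prime_of_mem_primeFactors hp0
  have hp0dvd := Nat.dvd_of_mem_primeFactors hp0
  have hcardQ : Nat.card H = Nat.card (H ⧸ N) * Nat.card N :=
    Subgroup.card_eq_card_quotient_mul_card_subgroup N
  have hQnt : Nontrivial (H ⧸ N) := by
    rw [← Finite.one_lt_card_iff_nontrivial]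
    have h1 : Nat.card (H ⧸ N) ≠ 1 := by
      intro h
      rw [hcardQ, h, one_mul, hb] at hp0dvd
      have := (Nat.prime_dvd_prime_iff_eq hp0' hr).mp (hp0'.dvd_of_dvd_pow hp0dvd)
      exact hp0r (by simp [this])
    have : 0 < Nat.card (H ⧸ N) := Nat.card_pos
    omega
  obtain ⟨t, ht, hAne⟩ := exists_pCore_ne_bot (G := H ⧸ N)
  have : Fact t.Prime := ⟨ht⟩
  have hrt : r ≠ t := by
    rintro rfl
    exact hAne (pCore_quotient_pCore r)
  obtain ⟨P, hPne, hPt, hPsup⟩ := exists_frattini hr ht hrt hNp (pCore t (H ⧸ N)) (isPGroup_pCore t) hAne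
  have hex2 : ∃ s ∈ (Nat.card H).primeFactors, s ∉ ({r, t} : Finset ℕ) := by
    apply Finset.exists_mem_notMem_of_card_lt_card
    have := Finset.card_le_two (a := r) (b := t)
    omega
  obtain ⟨s, hs1, hs2⟩ := hex2
  have hs' := Nat.prime_of_mem_primeFactors hs1
  have hsdvd := Nat.dvd_of_mem_primeFactors hs1
  have : Fact s.Prime := ⟨hs'⟩
  have hsr : s ≠ r := fun h => hs2 (by simp [h])
  have hst : s ≠ t := fun h => hs2 (by simp [h])
  set L := Subgroup.normalizer (P : Set H) with hL
  have hsL : s ∣ Nat.card L := by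
    have h2 := SuperSolv2.card_sup_mul_card_inf L N
    rw [hPsup, Subgroup.card_top] at h2
    have h3 : s ∣ Nat.card L * Nat.card N := by
      rw [← h2]
      exact hsdvd.trans (dvd_mul_right _ _)
    rcases (Nat.Prime.dvd_mul hs').mp h3 with h4 | h4
    · exact h4
    · rw [hb] at h4
      exact absurd ((Nat.prime_dvd_prime_iff_eq hs' hr).mp (hs'.dvd_of_dvd_pow h4)) hsr
  obtain ⟨y0, hy0⟩ := exists_prime_orderOf_dvd_card' s hsL
  have hy : orderOf (y0 : H) = s := by rw [Subgroup.orderOf_coe]; exact hy0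
  have hyne : (y0 : H) ≠ 1 := by
    intro h
    rw [h, orderOf_one] at hy
    exact hs'.one_lt.ne hy
  have hYL : Subgroup.zpowers (y0 : H) ≤ L := (Subgroup.zpowers_le).mpr y0.2
  obtain ⟨x0, hx0, hx0ne⟩ := exists_ne_one_of_ne_bot hPne
  have hVne := centerOf_ne_bot hr hNp hNne
  obtain ⟨v, hv, hvne⟩ := exists_ne_one_of_ne_bot hVne
  have key := pow_card_eq_one_of_frobenius_action (G := H) (V := centerOf N) (centerOf_comm N)
    (MulAut.conjNormal) P (Subgroup.zpowers (y0 : H))
    (fun c hc x hx => (Subgroup.mem_normalizer_iff.mp (hYL hc) x).mp hx)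
    (by
      intro c hc hcne x hx hxc
      by_contra hxne
      have htx := prime_dvd_orderOf_of_mem ht hPt hx hxne
      have hsc : s ∣ orderOf c := by
        have h1 : orderOf c ∣ s := by
          rw [← hy]
          exact orderOf_dvd_of_mem_zpowers hc
        have h2 := (Nat.dvd_prime hs').mp h1
        rcases h2 with h2 | h2
        · exact absurd (orderOf_eq_one_iff.mp h2) hcne
        · rw [h2]
      exact hst (hcp.prime_unique (y := x) (x := c) hxc.symm hs' ht hsc htx))
    (fun v hv => fpf_of_cp hcp hr ht hrt hNp hx0ne (prime_dvd_orderOf_of_mem ht hPt hx0 hx0ne) v (hv x0 hx0))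
    (fun v hv => fpf_of_cp hcp hr hs' hsr.symm hNp hyne (by rw [hy]) v (hv _ (Subgroup.mem_zpowers _)))
    ⟨v, hv⟩
  have hvpow : v ^ Nat.card P = 1 := congrArg Subtype.val key
  obtain ⟨a, ha⟩ := IsPGroup.iff_card.mp hPt
  rw [ha] at hvpow
  have hcop : Nat.Coprime r (t ^ a) := Nat.Coprime.pow_right a ((Nat.coprime_primes hr ht).mpr hrt)
  exact hvne (eq_one_of_pow_eq_one_of_coprime hr hNp hcop (centerOf_le N hv) hvpow)

section nonsolvable

variable {G : Type*} [Group G] [Finite G]

lemma isSolvable_of_isPGroup {r : ℕ} [Fact r.Prime] {K : Type*} [Group K] [Finite K] (h : IsPGroup r K) :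
    Group.IsSolvable K := by
  have : Group.IsNilpotent K := h.isNilpotent
  exact IsNilpotent.to_isSolvable

lemma isSolvable_mulAut_of_cyclic (Z : Type*) [Group Z] [Finite Z] [IsCyclic Z] :
    Group.IsSolvable (MulAut Z) := by
  apply Group.isSolvable_of_comm
  intro a b
  apply (IsCyclic.mulAutMulEquiv Z).injective
  rw [map_mul, map_mul, mul_comm]

/-- If `O_r(G)` and the next layer are both nontrivial for different primes, a `CP` group is solvable. -/
theorem isSolvable_of_two_layers (hcp : CP G) {r t : ℕ} (hr : r.Prime) (ht : t.Prime) (hrt : r ≠ t)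
    (N : Subgroup G) [N.Normal] (hN : IsPGroup r N) (hNne : N ≠ ⊥) (A : Subgroup (G ⧸ N)) [A.Normal]
    (hA : IsPGroup t A) (hAne : A ≠ ⊥) : Group.IsSolvable G := by
  have : Fact t.Prime := ⟨ht⟩
  have : Fact r.Prime := ⟨hr⟩
  obtain ⟨P, hPne, hPt, hPsup⟩ := exists_frattini hr ht hrt hN A hA hAne
  have hPnt : Nontrivial P := (Subgroup.nontrivial_iff_ne_bot P).mpr hPne
  have hcenter := hPt.center_nontrivial
  -- element of order t in the centre of P
  have hdvd : t ∣ Nat.card (Subgroup.center P) := by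
    obtain ⟨k, hk⟩ := IsPGroup.iff_card.mp (hPt.to_subgroup (Subgroup.center P))
    rw [hk]
    have hk0 : k ≠ 0 := by
      rintro rfl
      rw [pow_zero] at hk
      exact (Finite.one_lt_card_iff_nontrivial.mpr hcenter).ne' hk
    exact dvd_pow_self t hk0
  obtain ⟨z0, hz0⟩ := exists_prime_orderOf_dvd_card' t hdvd
  let z : G := ((z0 : P) : G)
  have hzP : z ∈ P := (z0 : P).2
  have hzord : orderOf z = t := by
    show orderOf (((z0 : P) : G)) = t
    rw [Subgroup.orderOf_coe, Subgroup.orderOf_coe]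
    exact hz0
  have hzne : z ≠ 1 := by
    intro h
    rw [h, orderOf_one] at hzord
    exact ht.one_lt.ne hzord
  have hzt : z ^ t = 1 := by rw [← hzord]; exact pow_orderOf_eq_one z
  have hzcomm : ∀ x ∈ P, Commute x z := by
    intro x hx
    have := Subgroup.mem_center_iff.mp z0.2 ⟨x, hx⟩
    exact congrArg Subtype.val this
  have hZP : Subgroup.zpowers z ≤ P := (Subgroup.zpowers_le).mpr hzP
  -- unique subgroup of order t
  have hU : ∀ x ∈ P, x ^ t = 1 → x ∈ Subgroup.zpowers z := by
    intro x hx hxt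
    by_contra hxz
    have hVne := centerOf_ne_bot hr hN hNne
    obtain ⟨v, hv, hvne⟩ := exists_ne_one_of_ne_bot hVne
    have key := pow_card_eq_one_of_commuting_pair (G := G) (V := centerOf N) (centerOf_comm N)
      MulAut.conjNormal x z (hzcomm x hx) t ht hxt hzt
      (fun w hw => fpf_of_cp hcp hr ht hrt hN hzne (by rw [hzord]) w hw)
      (fun y hy w hw => by
        have hc : x * y ∈ P := P.mul_mem hx (hZP hy)
        have hne : x * y ≠ 1 := by
          intro h
          apply hxz
          have : x = y⁻¹ := eq_inv_of_mul_eq_one_left h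
          rw [this]
          exact Subgroup.inv_mem _ hy
        exact fpf_of_cp hcp hr ht hrt hN hne (prime_dvd_orderOf_of_mem ht hPt hc hne) w hw)
      ⟨v, hv⟩
    have hvpow : v ^ Nat.card (Subgroup.zpowers z) = 1 := congrArg Subtype.val key
    rw [Nat.card_zpowers, hzord] at hvpow
    exact hvne (eq_one_of_pow_eq_one_of_coprime hr hN ((Nat.coprime_primes hr ht).mpr hrt)
      (centerOf_le N hv) hvpow)
  set Z := Subgroup.zpowers z with hZ
  set L := Subgroup.normalizer (P : Set G) with hL
  have hconj : ∀ g ∈ L, ∀ h ∈ Z, g * h * g⁻¹ ∈ Z := by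
    intro g hg h hh
    have h1 : g * h * g⁻¹ ∈ P := (Subgroup.mem_normalizer_iff.mp hg h).mp (hZP hh)
    apply hU _ h1
    have h2 : h ^ t = 1 := by
      obtain ⟨k, rfl⟩ := hh
      show (z ^ k) ^ t = 1
      rw [← zpow_natCast, ← zpow_mul, mul_comm, zpow_mul, zpow_natCast, hzt, one_zpow]
    have : g * h * g⁻¹ = (MulAut.conj g) h := by simp
    rw [this, ← map_pow, h2, map_one]
  have hLK : L ≤ Subgroup.normalizer (Z : Set G) := by
    intro g hg
    rw [Subgroup.mem_normalizer_iff]
    intro h
    refine ⟨hconj g hg h, fun h1 => ?_⟩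
    have := hconj g⁻¹ (L.inv_mem hg) _ h1
    simpa [mul_assoc] using this
  have hKsolv : Group.IsSolvable (Subgroup.normalizer (Z : Set G)) := by
    have hZcyc : IsCyclic Z := Subgroup.isCyclic_zpowers z
    have h1 : Group.IsSolvable (MulAut Z) := isSolvable_mulAut_of_cyclic Z
    have h2 : Group.IsSolvable (Z.normalizerMonoidHom).ker := by
      apply isSolvable_of_isPGroup (r := t)
      rw [IsPGroup.iff_orderOf]
      rintro ⟨⟨c, hcN⟩, hck⟩
      rw [Subgroup.normalizerMonoidHom_ker] at hck
      have hcc : c ∈ Subgroup.centralizer (Z : Set G) := hck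
      have hcz : Commute c z := (Subgroup.mem_centralizer_iff.mp hcc z (Subgroup.mem_zpowers z)).symm
      have h3 : orderOf c = t ^ (orderOf c).primeFactorsList.length :=
        Nat.eq_prime_pow_of_unique_prime_dvd (orderOf_pos c).ne' (fun {d} hd hd2 =>
          hcp.prime_unique hcz hd ht hd2 (by rw [hzord]))
      refine ⟨(orderOf c).primeFactorsList.length, ?_⟩
      rw [← h3, ← Subgroup.orderOf_coe, ← Subgroup.orderOf_coe]
    exact Group.isSolvable_of_ker_le_range (Z.normalizerMonoidHom).ker.subtype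
      Z.normalizerMonoidHom (by
        rw [Subgroup.range_subtype])
  have hLsolv : Group.IsSolvable L :=
    Group.isSolvable_of_isSolvable_injective (f := Subgroup.inclusion hLK) (Subgroup.inclusion_injective hLK)
  have hNsolv : Group.IsSolvable N := isSolvable_of_isPGroup hN
  have hQsolv : Group.IsSolvable (G ⧸ N) := by
    apply Group.isSolvable_of_surjective (f := (QuotientGroup.mk' N).comp L.subtype)
    intro q
    obtain ⟨g, rfl⟩ := QuotientGroup.mk_surjective q
    have hg : g ∈ L ⊔ N := by rw [hPsup]; trivial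
    rw [← SetLike.mem_coe, Subgroup.mul_normal] at hg
    obtain ⟨l, hl, n, hn, rfl⟩ := Set.mem_mul.mp hg
    refine ⟨⟨l, hl⟩, ?_⟩
    simp only [MonoidHom.comp_apply, Subgroup.subtype_apply, QuotientGroup.mk'_apply]
    rw [QuotientGroup.mk_mul_of_mem _ hn]
  exact Group.isSolvable_of_ker_le_range N.subtype (QuotientGroup.mk' N) (by
    rw [QuotientGroup.ker_mk', Subgroup.range_subtype])

/-- The solvable radical of a nonsolvable `CP` group is a `p`-group. -/
theorem radical_isPGroup (hcp : CP G) (hns : ¬ Group.IsSolvable G) (R : Subgroup G) [R.Normal]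
    (hRs : Group.IsSolvable R) : ∃ p : ℕ, p.Prime ∧ IsPGroup p R := by
  by_contra hcon
  push Not at hcon
  have hRne : Nontrivial R := by
    rw [Subgroup.nontrivial_iff_ne_bot]
    rintro rfl
    exact hcon 2 Nat.prime_two (IsPGroup.of_bot)
  obtain ⟨r, hr, hN0⟩ := exists_pCore_ne_bot (G := R)
  have : Fact r.Prime := ⟨hr⟩
  -- the r-core of G is nontrivial
  let N0 : Subgroup G := (pCore r R).map R.subtype
  have hN0normal : N0.Normal := ConjAct.normal_of_characteristic_of_normal
  have hN0p : IsPGroup r N0 := (isPGroup_pCore r).map _ 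
  have hN0le : N0 ≤ pCore r G := le_pCore hN0normal hN0p
  have hN0ne : N0 ≠ ⊥ := by
    intro h
    apply hN0
    exact (Subgroup.map_eq_bot_iff_of_injective _ R.subtype_injective).mp h
  set N := pCore r G with hNdef
  have hNp : IsPGroup r N := isPGroup_pCore r
  have hNne : N ≠ ⊥ := fun h => hN0ne (le_bot_iff.mp (h ▸ hN0le))
  -- the image of R
  let Rbar : Subgroup (G ⧸ N) := R.map (QuotientGroup.mk' N)
  have hRbarnormal : Rbar.Normal := Subgroup.Normal.map inferInstance _ (QuotientGroup.mk'_surjective N)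
  have hRbarne : Rbar ≠ ⊥ := by
    intro h
    have hle : R ≤ N := by
      rw [Subgroup.map_eq_bot_iff, QuotientGroup.ker_mk'] at h
      exact h
    exact hcon r hr (hNp.to_le hle)
  have hRbarsolv : Group.IsSolvable Rbar := by
    apply Group.isSolvable_of_surjective (f := (QuotientGroup.mk' N).subgroupMap R)
    exact MonoidHom.subgroupMap_surjective _ _
  have hRbarnt : Nontrivial Rbar := (Subgroup.nontrivial_iff_ne_bot _).mpr hRbarne
  obtain ⟨t, ht, hA0⟩ := exists_pCore_ne_bot (G := Rbar)
  have : Fact t.Prime := ⟨ht⟩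
  let A : Subgroup (G ⧸ N) := (pCore t Rbar).map Rbar.subtype
  have hAnormal : A.Normal := ConjAct.normal_of_characteristic_of_normal
  have hAp : IsPGroup t A := (isPGroup_pCore t).map _
  have hAne : A ≠ ⊥ := by
    intro h
    apply hA0
    exact (Subgroup.map_eq_bot_iff_of_injective _ Rbar.subtype_injective).mp h
  have hrt : r ≠ t := by
    rintro rfl
    have h1 : A ≤ pCore r (G ⧸ N) := le_pCore hAnormal hAp
    rw [pCore_quotient_pCore r] at h1
    exact hAne (le_bot_iff.mp h1)
  exact hns (isSolvable_of_two_layers hcp hr ht hrt N hNp hNne A hAp hAne)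

/-- Modulo the radical: a minimal normal subgroup of a `CP` group with trivial radical is simple and
contained in every nontrivial normal subgroup. -/
theorem exists_simple_min_normal {Q : Type*} [Group Q] [Finite Q] [Nontrivial Q] (hcp : CP Q)
    (hrad : ∀ N : Subgroup Q, N.Normal → Group.IsSolvable N → N = ⊥) :
    ∃ M : Subgroup Q, M.Normal ∧ IsSimpleGroup M ∧ ¬ IsMulCommutative M ∧
      ∀ N : Subgroup Q, N.Normal → N ≠ ⊥ → M ≤ N := by
  classical
  -- commuting subgroups
  have hcommute_false : ∀ T1 T2 : Subgroup Q, T1 ≠ ⊥ → (∀ p : ℕ, p.Prime → ¬ IsPGroup p T2) →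
      (∀ x ∈ T1, ∀ y ∈ T2, Commute x y) → False := by
    intro T1 T2 hT1 hT2 hc
    obtain ⟨x, hx, hxne⟩ := exists_ne_one_of_ne_bot hT1
    have hx1 : orderOf x ≠ 1 := fun h => hxne (orderOf_eq_one_iff.mp h)
    obtain ⟨u, hu, hux⟩ := Nat.exists_prime_and_dvd hx1
    have : Fact u.Prime := ⟨hu⟩
    have hnp := hT2 u hu
    rw [IsPGroup.iff_orderOf] at hnp
    push Not at hnp
    obtain ⟨y, hy⟩ := hnp
    have hex : ∃ q : ℕ, q.Prime ∧ q ∣ orderOf y ∧ q ≠ u := by
      by_contra hno
      push Not at hno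
      exact hy _ (Nat.eq_prime_pow_of_unique_prime_dvd (orderOf_pos y).ne' (fun {d} hd hd2 => hno d hd hd2))
    obtain ⟨q, hq, hqy, hqu⟩ := hex
    have hqy' : q ∣ orderOf (y : Q) := by rwa [Subgroup.orderOf_coe]
    exact hqu (hcp.prime_unique (hc x hx y y.2) hu hq hux hqy').symm
  have hnormal_notP : ∀ T : Subgroup Q, T.Normal → T ≠ ⊥ → ∀ p : ℕ, p.Prime → ¬ IsPGroup p T := by
    intro T hT hne p hp hTp
    have : Fact p.Prime := ⟨hp⟩
    exact hne (hrad T hT (isSolvable_of_isPGroup hTp))
  -- a minimal normal subgroup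
  let S : Set (Subgroup Q) := {N | N.Normal ∧ N ≠ ⊥}
  have htop : (⊤ : Subgroup Q) ∈ S := ⟨inferInstance, top_ne_bot⟩
  obtain ⟨M, hM⟩ := (Set.toFinite S).exists_minimal ⟨⊤, htop⟩
  have hMnormal : M.Normal := hM.1.1
  have hMne : M ≠ ⊥ := hM.1.2
  have hMle : ∀ N : Subgroup Q, N.Normal → N ≠ ⊥ → M ≤ N := by
    intro N hN hNne
    by_cases h : N ⊓ M = ⊥
    · exfalso
      exact hcommute_false N M hNne (hnormal_notP M hMnormal hMne)
        (fun x hx y hy => Subgroup.commute_of_normal_of_disjoint N M hN hMnormal (disjoint_iff.mpr h) x y hx hy)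
    · have h1 : N ⊓ M ∈ S := ⟨Subgroup.normal_inf_normal N M, h⟩
      exact (hM.2 h1 inf_le_right).trans inf_le_left
  refine ⟨M, hMnormal, ?_, ?_, hMle⟩
  · -- simple
    have hMnt : Nontrivial M := (Subgroup.nontrivial_iff_ne_bot M).mpr hMne
    refine { eq_bot_or_eq_top_of_normal := ?_ }
    intro T0 hT0
    by_cases hT0bot : T0 = ⊥
    · exact Or.inl hT0bot
    right
    let S' : Set (Subgroup Q) := {T | T ≤ M ∧ T ≠ ⊥ ∧ M ≤ Subgroup.normalizer (T : Set Q)}
    have hT0' : T0.map M.subtype ∈ S' := by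
      refine ⟨?_, ?_, ?_⟩
      · rintro _ ⟨x, _, rfl⟩
        exact x.2
      · intro h
        exact hT0bot ((Subgroup.map_eq_bot_iff_of_injective _ M.subtype_injective).mp h)
      · intro m hm
        rw [Subgroup.mem_normalizer_iff]
        intro h
        constructor
        · rintro ⟨x, hx, rfl⟩
          exact ⟨⟨m, hm⟩ * x * ⟨m, hm⟩⁻¹, hT0.conj_mem x hx _, by simp⟩
        · rintro ⟨x, hx, hxe⟩
          have hmem : h = m⁻¹ * (x : Q) * m := by
            have h2 : (x : Q) = m * h * m⁻¹ := hxe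
            rw [h2]; group
          refine ⟨⟨m, hm⟩⁻¹ * x * ⟨m, hm⟩, ?_, ?_⟩
          · have := hT0.conj_mem x hx (⟨m, hm⟩⁻¹ : M)
            simpa using this
          · rw [hmem]; simp
    obtain ⟨T, hTle, hT⟩ := (Set.toFinite S').exists_le_minimal hT0'
    -- members of S' are not p-groups
    have hnotP : ∀ U ∈ S', ∀ p : ℕ, p.Prime → ¬ IsPGroup p U := by
      intro U hU p hp hUp
      have : Fact p.Prime := ⟨hp⟩
      obtain ⟨hU1, hU2, hU3⟩ := hU
      have hnormalU : (U.subgroupOf M).Normal := (Subgroup.normal_subgroupOf_iff_le_normalizer hU1).mpr hU3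
      have hpU : IsPGroup p (U.subgroupOf M) :=
        hUp.of_equiv (Subgroup.subgroupOfEquivOfLe hU1).symm
      have hle : U.subgroupOf M ≤ pCore p M := le_pCore hnormalU hpU
      let W : Subgroup Q := (pCore p M).map M.subtype
      have hWnormal : W.Normal := ConjAct.normal_of_characteristic_of_normal
      have hWp : IsPGroup p W := (isPGroup_pCore p).map _
      have hWbot : W = ⊥ := by
        by_contra hne
        exact hnormal_notP W hWnormal hne p hp hWp
      have hpc : pCore p M = ⊥ := (Subgroup.map_eq_bot_iff_of_injective _ M.subtype_injective).mp hWbot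
      rw [hpc, le_bot_iff] at hle
      apply hU2
      rw [eq_bot_iff]
      intro x hx
      have : (⟨x, hU1 hx⟩ : M) ∈ U.subgroupOf M := hx
      rw [hle, Subgroup.mem_bot] at this
      exact congrArg Subtype.val this
    -- T is normal
    have hTnormal : T.Normal := by
      constructor
      intro n hn g
      let T' : Subgroup Q := T.map (MulAut.conj g).toMonoidHom
      have hT'mem : ∀ h : Q, h ∈ T' ↔ g⁻¹ * h * g ∈ T := by
        intro h
        constructor
        · rintro ⟨t, ht, rfl⟩
          simpa [mul_assoc] using ht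
        · intro ht
          exact ⟨_, ht, by simp [mul_assoc]⟩
      have hT'S : T' ∈ S' := by
        refine ⟨?_, ?_, ?_⟩
        · rintro _ ⟨t, ht, rfl⟩
          exact hMnormal.conj_mem t (hT.1.1 ht) g
        · intro h
          apply hT.1.2.1
          exact (Subgroup.map_eq_bot_iff_of_injective _ (MulAut.conj g).injective).mp h
        · intro m hm
          rw [Subgroup.mem_normalizer_iff]
          intro h
          rw [hT'mem, hT'mem]
          have h1 : g⁻¹ * m * g ∈ Subgroup.normalizer (T : Set Q) := by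
            apply hT.1.2.2
            have := hMnormal.conj_mem m hm g⁻¹
            simpa using this
          have h2 := Subgroup.mem_normalizer_iff.mp h1 (g⁻¹ * h * g)
          rw [h2]
          have h3 : g⁻¹ * m * g * (g⁻¹ * h * g) * (g⁻¹ * m * g)⁻¹ = g⁻¹ * (m * h * m⁻¹) * g := by group
          rw [h3]
      by_cases hinf : T ⊓ T' = ⊥
      · exfalso
        refine hcommute_false T T' hT.1.2.1 (hnotP T' hT'S) ?_
        intro x hx y hy
        have hxT' : x * y * x⁻¹ ∈ T' := (Subgroup.mem_normalizer_iff.mp (hT'S.2.2 (hT.1.1 hx)) y).mp hy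
        have hyT : y * x⁻¹ * y⁻¹ ∈ T := by
          have := (Subgroup.mem_normalizer_iff.mp (hT.1.2.2 (hT'S.1 hy)) x⁻¹).mp (T.inv_mem hx)
          exact this
        have h1 : x * y * x⁻¹ * y⁻¹ ∈ T' := T'.mul_mem hxT' (T'.inv_mem hy)
        have h2 : x * y * x⁻¹ * y⁻¹ ∈ T := by
          have : x * y * x⁻¹ * y⁻¹ = x * (y * x⁻¹ * y⁻¹) := by group
          rw [this]
          exact T.mul_mem hx hyT
        have h3 : x * y * x⁻¹ * y⁻¹ ∈ T ⊓ T' := ⟨h2, h1⟩
        rw [hinf, Subgroup.mem_bot] at h3
        have h4 := mul_inv_eq_one.mp h3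
        exact mul_inv_eq_iff_eq_mul.mp h4
      · have hinfS : T ⊓ T' ∈ S' := by
          refine ⟨inf_le_left.trans hT.1.1, hinf, ?_⟩
          intro m hm
          rw [Subgroup.mem_normalizer_iff]
          intro h
          constructor
          · rintro ⟨h1, h2⟩
            exact ⟨(Subgroup.mem_normalizer_iff.mp (hT.1.2.2 hm) h).mp h1,
              (Subgroup.mem_normalizer_iff.mp (hT'S.2.2 hm) h).mp h2⟩
          · rintro ⟨h1, h2⟩
            exact ⟨(Subgroup.mem_normalizer_iff.mp (hT.1.2.2 hm) h).mpr h1,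
              (Subgroup.mem_normalizer_iff.mp (hT'S.2.2 hm) h).mpr h2⟩
        have h1 : T ≤ T ⊓ T' := hT.2 hinfS inf_le_left
        have h2 : T ≤ T' := h1.trans inf_le_right
        have h3 : T = T' := by
          apply Subgroup.eq_of_le_of_card_ge h2
          have : Nat.card T' = Nat.card T :=
            (Nat.card_congr (Subgroup.equivMapOfInjective _ _ (MulAut.conj g).injective).toEquiv).symm
          rw [this]
        rw [h3]
        exact ⟨n, hn, by simp⟩
    have hMT : M ≤ T := hMle T hTnormal hT.1.2.1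
    have hMT0 : M ≤ T0.map M.subtype := hMT.trans hTle
    rw [eq_top_iff]
    intro x _
    obtain ⟨y, hy, hyx⟩ := hMT0 x.2
    have : y = x := Subtype.ext hyx
    rwa [← this]
  · -- nonabelian
    intro h
    apply hMne
    apply hrad M hMnormal
    apply Group.isSolvable_of_comm
    intro a b
    exact h.is_comm.comm a b

end nonsolvable

end Cfsg.Agent.Lib.CPGroups
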