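import Mathlib

/-!
# Transfer of a central involution of a Sylow 2-subgroup

If `P` is a Sylow 2-subgroup of `G`, `u` a central involution of `P` and `ϕ : P → A` a homomorphism
to an abelian group, then the non-`P`-fixed cosets cancel in pairs in the transfer formula, so that
`V(u) = ∏_{g ∈ N_G(P)/P} ϕ(u^g)`. If `ϕ` identifies all `N_G(P)`-conjugates of `u`, then
`V(u) = ϕ(u)`.
-/

set_option autoImplicit false

namespace Cfsg.Agent.Lib.CentInvTransfer

open Subgroup

/-- On a union of nontrivial orbits of a 2-group, an invariant function with values of order at most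
2 has product 1. -/
theorem prod_eq_one_of_no_fixed {H S A : Type*} [Group H] [MulAction H S] [CommGroup A]
    [Finite S] (hH : IsPGroup 2 H) (c : S → A) (hc : ∀ (h : H) (s : S), c (h • s) = c s)
    (hc2 : ∀ s, c s ^ 2 = 1) (W : Finset S)
    (hinv : ∀ h : H, ∀ s ∈ W, h • s ∈ W) (hnf : ∀ s ∈ W, ∃ h : H, h • s ≠ s) :
    ∏ s ∈ W, c s = 1 := by
  classical
  haveI : Fintype S := Fintype.ofFinite S
  induction W using Finset.strongInduction with
  | H W ih =>
    rcases W.eq_empty_or_nonempty with rfl | ⟨s, hs⟩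
    · simp
    let O : Finset S := Finset.univ.filter (fun x => x ∈ MulAction.orbit H s)
    have hOmem : ∀ x, x ∈ O ↔ x ∈ MulAction.orbit H s := by
      intro x; simp [O]
    have hOW : O ⊆ W := by
      intro x hx
      obtain ⟨h, rfl⟩ := (hOmem x).1 hx
      exact hinv h s hs
    have hO : ∏ x ∈ O, c x = 1 := by
      have h1 : ∀ x ∈ O, c x = c s := by
        intro x hx
        obtain ⟨h, rfl⟩ := (hOmem x).1 hx
        exact hc h s
      rw [Finset.prod_congr rfl h1, Finset.prod_const]
      obtain ⟨n, hn⟩ := hH.card_orbit s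
      have hcard : O.card = Nat.card (MulAction.orbit H s) := by
        rw [Nat.card_eq_fintype_card, ← Set.toFinset_card]
        congr 1
        ext x
        simp [hOmem]
      have hn0 : n ≠ 0 := by
        rintro rfl
        obtain ⟨h, hh⟩ := hnf s hs
        apply hh
        rw [pow_zero] at hn
        have hsub : Subsingleton (MulAction.orbit H s) := by
          exact (Nat.card_eq_one_iff_unique.mp hn).1
        have := hsub.elim ⟨h • s, MulAction.mem_orbit s h⟩ ⟨s, MulAction.mem_orbit_self s⟩
        exact congrArg Subtype.val this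
      obtain ⟨k, rfl⟩ := Nat.exists_eq_succ_of_ne_zero hn0
      rw [hcard, hn, pow_succ, pow_mul', hc2, one_pow]
    rw [← Finset.prod_sdiff hOW, hO, mul_one]
    have hsmem : s ∈ O := (hOmem s).2 (MulAction.mem_orbit_self s)
    have hss : W \ O ⊂ W := by
      refine Finset.ssubset_iff_subset_ne.mpr ⟨Finset.sdiff_subset, fun heq => ?_⟩
      have : s ∈ W \ O := by rw [heq]; exact hs
      exact (Finset.mem_sdiff.mp this).2 hsmem
    refine ih _ hss ?_ ?_
    · intro h x hx
      rw [Finset.mem_sdiff] at hx ⊢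
      refine ⟨hinv h x hx.1, fun hxO => hx.2 ?_⟩
      rw [hOmem] at hxO ⊢
      obtain ⟨k, hk⟩ := hxO
      refine ⟨h⁻¹ * k, ?_⟩
      show (h⁻¹ * k) • s = x
      rw [mul_smul]
      have hk' : k • s = h • x := hk
      rw [hk', inv_smul_smul]
    · intro x hx
      exact hnf x (Finset.mem_sdiff.mp hx).1

/-- **Transfer of a central involution.** -/
theorem transfer_central_involution {G A : Type*} [Group G] [Finite G] [CommGroup A]
    (P : Sylow 2 G) (ϕ : (P : Subgroup G) →* A) (u : (P : Subgroup G))
    (hu : ∀ x : (P : Subgroup G), x * u = u * x) (hu2 : u ^ 2 = 1)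
    (hN : ∀ g ∈ normalizer ((P : Subgroup G) : Set G), ∀ h : g⁻¹ * u * g ∈ (P : Subgroup G),
      ϕ ⟨g⁻¹ * u * g, h⟩ = ϕ u) :
    ϕ.transfer (u : G) = ϕ u := by
  classical
  haveI : Fintype (G ⧸ (P : Subgroup G)) := Fintype.ofFinite _
  haveI : Fintype (Quotient (MulAction.orbitRel (zpowers (u : G)) (G ⧸ (P : Subgroup G)))) :=
    Fintype.ofFinite _
  have hH : IsPGroup 2 (P : Subgroup G) := P.isPGroup'
  have hu2' : (u : G) ^ 2 = 1 := by
    have := congrArg Subtype.val hu2
    simpa using this
  have hmem : ∀ g : G, (u : G) • (g : G ⧸ (P : Subgroup G)) = g → g⁻¹ * u * g ∈ (P : Subgroup G) := by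
    intro g hg
    have h1 : ((g : G) : G ⧸ (P : Subgroup G)) = ((u * g : G) : G ⧸ (P : Subgroup G)) := hg.symm
    rw [QuotientGroup.eq] at h1
    rwa [mul_assoc]
  have hmem' : ∀ ω : G ⧸ (P : Subgroup G), (u : G) • ω = ω → ω.out⁻¹ * u * ω.out ∈ (P : Subgroup G) :=
    fun ω h => hmem ω.out (by rwa [QuotientGroup.out_eq'])
  let c : G ⧸ (P : Subgroup G) → A := fun ω =>
    if h : (u : G) • ω = ω then ϕ ⟨_, hmem' ω h⟩ else 1
  have hcdef : ∀ ω (h : (u : G) • ω = ω), c ω = ϕ ⟨_, hmem' ω h⟩ := fun ω h => dif_pos h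
  have hcdef' : ∀ ω, ¬ (u : G) • ω = ω → c ω = 1 := fun ω h => dif_neg h
  -- transfer as a product over cosets
  have hprod : ϕ.transfer (u : G) = ∏ ω, c ω := by
    rw [MonoidHom.transfer_eq_prod_quotient_orbitRel_zpowers_quot]
    have hterm : ∀ q : Quotient (MulAction.orbitRel (zpowers (u : G)) (G ⧸ (P : Subgroup G))),
        ϕ ⟨q.out.out⁻¹ * (u : G) ^ Function.minimalPeriod ((u : G) • ·) q.out * q.out.out,
          QuotientGroup.out_conj_pow_minimalPeriod_mem _ (u : G) q.out⟩ = c q.out := by
      intro q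
      by_cases h : (u : G) • q.out = q.out
      · rw [hcdef _ h]
        have hm : Function.minimalPeriod ((u : G) • ·) q.out = 1 :=
          Function.minimalPeriod_eq_one_iff_isFixedPt.mpr h
        refine congrArg ϕ (Subtype.ext ?_)
        simp only [hm, pow_one]
      · rw [hcdef' _ h]
        have hper : Function.IsPeriodicPt ((u : G) • ·) 2 q.out := by
          show ((u : G) • ·)^[2] q.out = q.out
          simp only [Function.iterate_succ, Function.iterate_zero, Function.comp, id, smul_smul]
          rw [← pow_two, hu2', one_smul]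
        have hdvd := hper.minimalPeriod_dvd
        have hne : Function.minimalPeriod ((u : G) • ·) q.out ≠ 1 := fun h1 =>
          h (Function.minimalPeriod_eq_one_iff_isFixedPt.mp h1)
        have hm : Function.minimalPeriod ((u : G) • ·) q.out = 2 :=
          ((Nat.dvd_prime Nat.prime_two).mp hdvd).resolve_left hne
        have : (⟨q.out.out⁻¹ * (u : G) ^ Function.minimalPeriod ((u : G) • ·) q.out * q.out.out,
          QuotientGroup.out_conj_pow_minimalPeriod_mem _ (u : G) q.out⟩ : (P : Subgroup G)) = 1 := by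
          refine Subtype.ext ?_
          simp only [hm, hu2']
          simp
        rw [this, map_one]
    rw [Finset.prod_congr rfl (fun q _ => hterm q)]
    have hinj : Function.Injective
        (fun q : Quotient (MulAction.orbitRel (zpowers (u : G)) (G ⧸ (P : Subgroup G))) => q.out) :=
      Quotient.out_injective
    rw [← Finset.prod_image (s := Finset.univ) (g := fun q => q.out) (f := c)
      (fun a _ b _ hab => hinj hab)]
    apply Finset.prod_subset (Finset.subset_univ _)
    intro ω _ hω
    apply hcdef'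
    intro hfix
    apply hω
    rw [Finset.mem_image]
    refine ⟨Quotient.mk _ ω, Finset.mem_univ _, ?_⟩
    have h1 := Quotient.mk_out (s := MulAction.orbitRel (zpowers (u : G)) (G ⧸ (P : Subgroup G))) ω
    obtain ⟨⟨z, hz⟩, hzz⟩ := h1
    obtain ⟨k, rfl⟩ := Subgroup.mem_zpowers_iff.mp hz
    have hk : ∀ k : ℤ, ((u : G) ^ k) • ω = ω := by
      intro k
      have : (u : G) ∈ MulAction.stabilizer G ω := hfix
      exact (MulAction.stabilizer G ω).zpow_mem this k
    have h3 : (⟨(u : G) ^ k, hz⟩ : zpowers (u : G)) • ω = ω := hk k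
    exact hzz.symm.trans h3
  -- invariance
  have hc : ∀ (x : (P : Subgroup G)) (ω : G ⧸ (P : Subgroup G)), c (x • ω) = c ω := by
    intro x ω
    have hcomm : (x : G) * u = u * x := congrArg Subtype.val (hu x)
    have hsm : ∀ (x : (P : Subgroup G)) (ω : G ⧸ (P : Subgroup G)), x • ω = (x : G) • ω := by
      intro x ω
      induction ω using QuotientGroup.induction_on with
      | H g => rfl
    have hfix : (u : G) • (x • ω) = x • ((u : G) • ω) := by
      rw [hsm, hsm, smul_smul, smul_smul, hcomm]
    by_cases h : (u : G) • ω = ω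
    · have h' : (u : G) • (x • ω) = x • ω := by rw [hfix, h]
      rw [hcdef _ h, hcdef _ h']
      have hout : ((x • ω).out : G ⧸ (P : Subgroup G)) = ((x * ω.out : G) : G ⧸ (P : Subgroup G)) := by
        rw [QuotientGroup.out_eq', hsm]
        conv_lhs => rw [← QuotientGroup.out_eq' ω]
        rfl
      rw [eq_comm, QuotientGroup.eq] at hout
      set y : (P : Subgroup G) := ⟨_, hout⟩ with hy
      have hyv : (x • ω).out = (x : G) * ω.out * y := by
        simp only [hy]
        group
      let a : (P : Subgroup G) := ⟨_, hmem' ω h⟩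
      have : (⟨_, hmem' _ h'⟩ : (P : Subgroup G)) = y⁻¹ * a * y := by
        refine Subtype.ext ?_
        simp only [Subgroup.coe_mul, Subgroup.coe_inv, a]
        rw [hyv]
        have hcomm' : (x : G)⁻¹ * u * x = u := by
          rw [mul_assoc, ← hcomm]; group
        calc ((x : G) * ω.out * y)⁻¹ * u * ((x : G) * ω.out * y)
            = (y : G)⁻¹ * (ω.out⁻¹ * ((x : G)⁻¹ * u * x) * ω.out) * y := by group
          _ = _ := by rw [hcomm']
      rw [this, map_mul, map_mul, map_inv, mul_comm (ϕ y)⁻¹, mul_assoc, inv_mul_cancel, mul_one]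
    · have h' : ¬ (u : G) • (x • ω) = x • ω := by
        rw [hfix]
        intro h3
        exact h (smul_left_cancel x h3)
      rw [hcdef' _ h, hcdef' _ h']
  have hϕu : ϕ u ^ 2 = 1 := by rw [← map_pow, hu2, map_one]
  have hc2 : ∀ ω, c ω ^ 2 = 1 := by
    intro ω
    by_cases h : (u : G) • ω = ω
    · rw [hcdef _ h, ← map_pow]
      have : (⟨_, hmem' _ h⟩ : (P : Subgroup G)) ^ 2 = 1 := by
        refine Subtype.ext ?_
        simp only [Subgroup.coe_pow, Subgroup.coe_one]
        have : (ω.out⁻¹ * (u : G) * ω.out) ^ 2 = ω.out⁻¹ * ((u : G) ^ 2) * ω.out := by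
          simp only [pow_two, mul_assoc, mul_inv_cancel_left]
        rw [this, hu2']; simp
      rw [this, map_one]
    · rw [hcdef' _ h, one_pow]
  -- split
  rw [hprod, ← Finset.prod_filter_mul_prod_filter_not Finset.univ
    (fun ω => ω ∈ MulAction.fixedPoints (P : Subgroup G) (G ⧸ (P : Subgroup G)))]
  have hW : ∏ ω ∈ Finset.univ.filter
      (fun ω => ¬ ω ∈ MulAction.fixedPoints (P : Subgroup G) (G ⧸ (P : Subgroup G))), c ω = 1 := by
    apply prod_eq_one_of_no_fixed hH c hc hc2
    · intro h s hs
      rw [Finset.mem_filter] at hs ⊢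
      refine ⟨Finset.mem_univ _, fun hfix => hs.2 ?_⟩
      have h1 : h⁻¹ • (h • s) = h • s := hfix h⁻¹
      rw [inv_smul_smul] at h1
      rw [h1]
      exact hfix
    · intro s hs
      have := (Finset.mem_filter.mp hs).2
      simpa [MulAction.mem_fixedPoints] using this
  rw [hW, mul_one]
  have hS : ∀ ω ∈ Finset.univ.filter
      (fun ω => ω ∈ MulAction.fixedPoints (P : Subgroup G) (G ⧸ (P : Subgroup G))), c ω = ϕ u := by
    intro ω hω
    have hfix := (Finset.mem_filter.mp hω).2
    have h : (u : G) • ω = ω := hfix u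
    rw [hcdef _ h]
    apply hN
    rw [← QuotientGroup.out_eq' ω] at hfix
    exact Sylow.mem_fixedPoints_mul_left_cosets_iff_mem_normalizer.mp hfix
  rw [Finset.prod_congr rfl hS, Finset.prod_const]
  have hodd : Odd (Finset.univ.filter
      (fun ω => ω ∈ MulAction.fixedPoints (P : Subgroup G) (G ⧸ (P : Subgroup G)))).card := by
    have h1 := hH.card_modEq_card_fixedPoints (G ⧸ (P : Subgroup G))
    have h2 : (Finset.univ.filter
      (fun ω => ω ∈ MulAction.fixedPoints (P : Subgroup G) (G ⧸ (P : Subgroup G)))).card =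
        Nat.card (MulAction.fixedPoints (P : Subgroup G) (G ⧸ (P : Subgroup G))) := by
      rw [Nat.card_eq_fintype_card, ← Set.toFinset_card]
      congr 1
      ext x; simp
    rw [h2]
    have h3 : ¬ 2 ∣ (P : Subgroup G).index := P.not_dvd_index
    have h4 : Nat.card (G ⧸ (P : Subgroup G)) = (P : Subgroup G).index := rfl
    rw [h4] at h1
    rw [Nat.odd_iff]
    have h5 : (P : Subgroup G).index % 2 = 1 := by omega
    unfold Nat.ModEq at h1
    omega
  obtain ⟨k, hk⟩ := hodd
  rw [hk, pow_succ, pow_mul, hϕu, one_pow, one_mul]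

/-- A group with no subgroup of index 2 has no nontrivial homomorphism to a finite 2-group. -/
theorem hom_trivial_of_no_index_two {G A : Type*} [Group G] [Group A] [Finite A]
    (hG : ∀ H : Subgroup G, H.index ≠ 2) (hA : IsPGroup 2 A) (ψ : G →* A) (g : G) : ψ g = 1 := by
  by_contra hne
  let R := ψ.range
  have hR : IsPGroup 2 R := hA.to_subgroup R
  haveI : Fact (Nat.Prime 2) := ⟨Nat.prime_two⟩
  obtain ⟨k, hk⟩ := (IsPGroup.iff_card).1 hR
  have hk0 : k ≠ 0 := by
    rintro rfl
    rw [pow_zero] at hk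
    have hsub : Subsingleton R := (Nat.card_eq_one_iff_unique.mp hk).1
    have := hsub.elim ⟨ψ g, ⟨g, rfl⟩⟩ 1
    exact hne (congrArg Subtype.val this)
  obtain ⟨k', rfl⟩ := Nat.exists_eq_succ_of_ne_zero hk0
  obtain ⟨K, hK⟩ := Sylow.exists_subgroup_card_pow_prime (G := R) 2 (n := k')
    (by rw [hk]; exact pow_dvd_pow _ (Nat.le_succ _))
  have hidx : K.index = 2 := by
    have h1 := K.card_mul_index
    rw [hK, hk, Nat.succ_eq_add_one, pow_succ] at h1
    exact Nat.eq_of_mul_eq_mul_left (by positivity) h1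
  apply hG (K.comap ψ.rangeRestrict)
  rw [Subgroup.index_comap_of_surjective _ ψ.rangeRestrict_surjective]
  exact hidx

end Cfsg.Agent.Lib.CentInvTransfer
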