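import Mathlib

/-!
# Conjugacy classes of a quotient by the centre, via Burnside's lemma
-/

set_option autoImplicit false

namespace Cfsg.Agent.Lib.CenterClasses

open MulAction

variable {G : Type*} [Group G]

/-- Multiplication of conjugacy classes by central elements. -/
def zs (z : Subgroup.center G) (C : ConjClasses G) : ConjClasses G :=
  Quotient.liftOn C (fun g => ConjClasses.mk (z.1 * g)) (by
    intro a b hab
    have hab' : IsConj a b := hab
    apply ConjClasses.mk_eq_mk_iff_isConj.mpr
    obtain ⟨c, rfl⟩ := isConj_iff.mp hab'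
    rw [isConj_iff]
    refine ⟨c, ?_⟩
    have hz : ∀ y : G, z.1 * y = y * z.1 := fun y => (Subgroup.mem_center_iff.mp z.2 y).symm
    calc c * (z.1 * a) * c⁻¹ = (c * z.1) * a * c⁻¹ := by group
      _ = (z.1 * c) * a * c⁻¹ := by rw [hz c]
      _ = z.1 * (c * a * c⁻¹) := by group)

@[simp] lemma zs_mk (z : Subgroup.center G) (g : G) : zs z (ConjClasses.mk g) = ConjClasses.mk (z.1 * g) := rfl

/-- The action of the centre on conjugacy classes. -/
@[instance_reducible] def czAction (G : Type*) [Group G] : MulAction (Subgroup.center G) (ConjClasses G) where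
  smul := zs
  one_smul C := by
    obtain ⟨g, rfl⟩ := ConjClasses.mk_surjective C
    show zs 1 (ConjClasses.mk g) = _
    simp
  mul_smul a b C := by
    obtain ⟨g, rfl⟩ := ConjClasses.mk_surjective C
    show zs (a * b) (ConjClasses.mk g) = zs a (zs b (ConjClasses.mk g))
    simp [mul_assoc]

/-- Burnside's formula for the class number of the quotient by the centre. -/
theorem burnside_center [Finite G] [Fintype (Subgroup.center G)] :
    ∑ z : Subgroup.center G, Nat.card {C : ConjClasses G // zs z C = C} =
      Nat.card (ConjClasses (G ⧸ Subgroup.center G)) * Nat.card (Subgroup.center G) := by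
  classical
  letI := czAction G
  haveI : Fintype (ConjClasses G) := Fintype.ofFinite _
  letI : ∀ g : Subgroup.center G, Fintype (fixedBy (ConjClasses G) g) := fun _ => Fintype.ofFinite _
  letI : Fintype (orbitRel.Quotient (Subgroup.center G) (ConjClasses G)) := Fintype.ofFinite _
  have b := MulAction.sum_card_fixedBy_eq_card_orbits_mul_card_group (Subgroup.center G) (ConjClasses G)
  have e1 : ∀ z : Subgroup.center G, Nat.card {C : ConjClasses G // zs z C = C} = Fintype.card (fixedBy (ConjClasses G) z) := by
    intro z
    rw [← Nat.card_eq_fintype_card]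
    rfl
  rw [Finset.sum_congr rfl (fun z _ => e1 z), b, Nat.card_eq_fintype_card (α := Subgroup.center G)]
  congr 1
  rw [← Nat.card_eq_fintype_card]
  -- identify the orbit space
  let π := QuotientGroup.mk' (Subgroup.center G)
  let pC : ConjClasses G → ConjClasses (G ⧸ Subgroup.center G) := ConjClasses.map π
  have hpC : ∀ (z : Subgroup.center G) (C : ConjClasses G), pC (zs z C) = pC C := by
    intro z C
    obtain ⟨g, rfl⟩ := ConjClasses.mk_surjective C
    show ConjClasses.mk (π (z.1 * g)) = ConjClasses.mk (π g)
    have : π z.1 = 1 := (QuotientGroup.eq_one_iff _).mpr z.2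
    rw [map_mul, this, one_mul]
  let Fm : orbitRel.Quotient (Subgroup.center G) (ConjClasses G) → ConjClasses (G ⧸ Subgroup.center G) :=
    Quotient.lift pC (by
      rintro a b ⟨z, hz⟩
      have : zs z b = a := hz
      rw [← this]
      exact hpC z b)
  apply Nat.card_congr
  refine Equiv.ofBijective Fm ⟨?_, ?_⟩
  · intro x y hxy
    induction x using Quotient.inductionOn with
    | h C =>
      induction y using Quotient.inductionOn with
      | h C' =>
        have hCC : pC C = pC C' := hxy
        obtain ⟨g, rfl⟩ := ConjClasses.mk_surjective C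
        obtain ⟨g', rfl⟩ := ConjClasses.mk_surjective C'
        have h1 : IsConj (π g) (π g') := ConjClasses.mk_eq_mk_iff_isConj.mp hCC
        obtain ⟨c, hc⟩ := isConj_iff.mp h1
        obtain ⟨c', rfl⟩ := QuotientGroup.mk'_surjective _ c
        have h2 : π (c' * g * c'⁻¹) = π g' := by
          rw [map_mul, map_mul, map_inv]
          exact hc
        have h3 := QuotientGroup.eq.mp h2
        let z : Subgroup.center G := ⟨_, h3⟩
        have hz : ∀ y : G, z.1 * y = y * z.1 := fun y => (Subgroup.mem_center_iff.mp z.2 y).symm
        apply Quotient.sound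
        show ConjClasses.mk g ∈ orbit (Subgroup.center G) (ConjClasses.mk g')
        refine ⟨z⁻¹, ?_⟩
        show zs z⁻¹ (ConjClasses.mk g') = ConjClasses.mk g
        rw [zs_mk]
        have hz' : z.1 = (c' * g * c'⁻¹)⁻¹ * g' := rfl
        have h4 : g' = c' * g * c'⁻¹ * z.1 := by rw [hz']; group
        have h5 : (z⁻¹ : Subgroup.center G).1 * g' = c' * g * c'⁻¹ := by
          show z.1⁻¹ * g' = _
          rw [h4, ← hz, inv_mul_cancel_left]
        rw [h5]
        apply ConjClasses.mk_eq_mk_iff_isConj.mpr
        exact (isConj_iff.mpr ⟨c', rfl⟩).symm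
  · intro y
    obtain ⟨x, rfl⟩ := ConjClasses.map_surjective (QuotientGroup.mk'_surjective (Subgroup.center G)) y
    exact ⟨Quotient.mk'' x, rfl⟩

/-- The class number of the group is bounded by the fixed points count. -/
lemma card_classes_eq_fix_one [Finite G] :
    Nat.card {C : ConjClasses G // zs (1 : Subgroup.center G) C = C} = Nat.card (ConjClasses G) := by
  apply Nat.card_congr
  refine Equiv.subtypeUnivEquiv ?_
  intro C
  obtain ⟨g, rfl⟩ := ConjClasses.mk_surjective C
  simp

end Cfsg.Agent.Lib.CenterClasses
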