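import Mathlib
import Cfsg.Agent.Lib.CtrlChainMain
import Cfsg.Agent.Lib.PResid

/-!
# Local-to-global through subgroups containing `Z(P)`: an abstract skeleton.

`Goal A g` is an abstract predicate on sets `A ⊆ P` and conjugating elements `g`
(on the right, `a ↦ g⁻¹ a g`).
-/

set_option autoImplicit false

namespace Cfsg.Agent.Lib.CentralFunctor

open Cfsg Cfsg.Agent.Lib.SylowConjLemmas Cfsg.Agent.Lib.ConjFam Cfsg.Agent.Lib.WellPlaced
open Cfsg.Agent.Lib.CtrlStrong Cfsg.Agent.Lib.CtrlChainMain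

variable {G : Type*} [Group G] [Finite G] {p : ℕ} [Fact p.Prime]

/-- The axioms for the abstract goal. -/
structure GoalData (P : Subgroup G) (W : Subgroup G → Subgroup G) (Goal : Set G → G → Prop) : Prop where
  mono : ∀ {A B : Set G} {g : G}, Goal A g → B ⊆ A → Goal B g
  trans : ∀ {A B : Set G} {g h : G}, Goal A g → cj g A ⊆ B → Goal B h → Goal A (g * h)
  central : ∀ {A : Set G} {c : G}, c ∈ Subgroup.centralizer A → Goal A c
  gen : ∀ {A : Set G} {s : G}, A ⊆ P → s ∈ Subgroup.normalizer ((W P : Subgroup G) : Set G) →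
    cj s A ⊆ P → Goal A s

/-- Global predicate on subgroups. -/
def PP' (Goal : Set G → G → Prop) (P : Subgroup G) (m : ℕ) : Prop :=
  ∀ B : Subgroup G, B ≤ P → m ≤ Nat.card B → ∀ g : G, (∀ b ∈ B, g⁻¹ * b * g ∈ P) → Goal (B : Set G) g

/-- The class of fully normalized subgroups conjugate to a subgroup containing `Z(P)`. -/
def YY (p : ℕ) (P Y : Subgroup G) : Prop :=
  Y ≤ P ∧ FN p P Y ∧ ∃ (H : Subgroup G) (k : G), P ⊓ Subgroup.centralizer (P : Set G) ≤ H ∧ H ≤ P ∧
    H.map (MulAut.conj k).toMonoidHom = Y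

/-- Global predicate on normalizers. -/
def LL' (Goal : Set G → G → Prop) (p : ℕ) (P : Subgroup G) (m : ℕ) : Prop :=
  ∀ Y : Subgroup G, YY p P Y → m ≤ Nat.card ↥(P ⊓ Subgroup.normalizer (Y : Set G)) →
    ∀ y ∈ Subgroup.normalizer (Y : Set G), ∀ A : Set G,
      A ⊆ (P ⊓ Subgroup.normalizer (Y : Set G) : Subgroup G) →
      cj y A ⊆ (P ⊓ Subgroup.normalizer (Y : Set G) : Subgroup G) → Goal A y

variable {W : Subgroup G → Subgroup G} {Goal : Set G → G → Prop}

/-- `Z(P)` lies in `N_P(Y)`, and is central in it. -/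
theorem center_le_inf {P Y : Subgroup G} (hYP : Y ≤ P) :
    P ⊓ Subgroup.centralizer (P : Set G) ≤ P ⊓ Subgroup.normalizer (Y : Set G) := by
  rintro z ⟨hz1, hz2⟩
  refine ⟨hz1, ?_⟩
  show z ∈ Subgroup.normalizer _
  rw [Subgroup.mem_normalizer_iff]
  intro y
  have hcomm : ∀ q ∈ P, q * z = z * q := fun q hq => Subgroup.mem_centralizer_iff.mp hz2 q hq
  constructor
  · intro hy
    have e : z * y * z⁻¹ = y := by
      rw [← hcomm y (hYP hy)]
      group
    rwa [e]
  · intro hy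
    have hzyP : z * y * z⁻¹ ∈ P := hYP hy
    have hyP : y ∈ P := by
      have e : y = z⁻¹ * (z * y * z⁻¹) * z := by group
      rw [e]
      exact P.mul_mem (P.mul_mem (P.inv_mem hz1) hzyP) hz1
    have e : z * y * z⁻¹ = y := by
      rw [← hcomm y hyP]
      group
    rwa [e] at hy

omit [Finite G] in
theorem center_le_center {P R : Subgroup G} (hR : P ⊓ Subgroup.centralizer (P : Set G) ≤ R) (hRP : R ≤ P) :
    P ⊓ Subgroup.centralizer (P : Set G) ≤ R ⊓ Subgroup.centralizer (R : Set G) := by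
  refine le_inf hR ?_
  rintro z ⟨_, hz⟩
  rw [Subgroup.mem_centralizer_iff]
  intro r hr
  exact Subgroup.mem_centralizer_iff.mp hz r (hRP hr)

/-- The step inside `N(W(N_P(Y)))`. -/
theorem step_claim (S : Sylow p G) (hW : IsConjugacyFunctor p W)
    (hWZ : ∀ H : Subgroup G, IsPGroup p ↥H → H ⊓ Subgroup.centralizer ((H : Subgroup G) : Set G) ≤ W H)
    (hG : GoalData (S : Subgroup G) W Goal) {m : ℕ} (hP : PP' Goal (S : Subgroup G) m)
    (hL : LL' Goal p (S : Subgroup G) (m + 1)) {Y : Subgroup G} (hYS : Y ≤ (S : Subgroup G))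
    (hm : m ≤ Nat.card ↥((S : Subgroup G) ⊓ Subgroup.normalizer (Y : Set G))) {s : G}
    (hs : s ∈ Subgroup.normalizer ((W ((S : Subgroup G) ⊓ Subgroup.normalizer (Y : Set G)) : Subgroup G) : Set G))
    {D : Set G} (hD : D ⊆ ((S : Subgroup G) ⊓ Subgroup.normalizer (Y : Set G) : Subgroup G))
    (hsD : cj s D ⊆ ((S : Subgroup G) ⊓ Subgroup.normalizer (Y : Set G) : Subgroup G)) :
    Goal D s := by
  set R : Subgroup G := (S : Subgroup G) ⊓ Subgroup.normalizer (Y : Set G) with hR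
  have hSp : IsPGroup p (S : Subgroup G) := S.isPGroup'
  have hRp : IsPGroup p R := hSp.to_le inf_le_left
  have hRS : R ≤ (S : Subgroup G) := inf_le_left
  by_cases hRSe : R = (S : Subgroup G)
  · rw [hRSe] at hs hD hsD
    exact hG.gen hD hs hsD
  · have hZR : (S : Subgroup G) ⊓ Subgroup.centralizer ((S : Subgroup G) : Set G) ≤ R := center_le_inf hYS
    have hZW : (S : Subgroup G) ⊓ Subgroup.centralizer ((S : Subgroup G) : Set G) ≤ W R :=
      (center_le_center hZR hRS).trans (hWZ R hRp)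
    have hX₁R : W R ≤ R := W_le hW hRp
    have hX₁p : IsPGroup p (W R) := hRp.to_le hX₁R
    obtain ⟨g, hg⟩ := exists_fully_normalized S (W R)
    have hQp : IsPGroup p ↥((S : Subgroup G) ⊓ Subgroup.normalizer ((W R : Subgroup G) : Set G)) :=
      hSp.to_le inf_le_left
    obtain ⟨h, hh, hQ⟩ := exists_conj_of_FN S hg rfl hQp inf_le_right
    set Y₂ : Subgroup G := (W R).map (MulAut.conj g).toMonoidHom with hY₂
    have hY₂p : IsPGroup p Y₂ := hX₁p.map _
    have hY₂S : Y₂ ≤ (S : Subgroup G) := (le_of_FN hSp hY₂p hg).trans inf_le_left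
    have hRN : R ≤ (S : Subgroup G) ⊓ Subgroup.normalizer ((W R : Subgroup G) : Set G) :=
      le_inf hRS (Subgroup.le_normalizer.trans (normalizer_le_normalizer_W hW hRp))
    have hlt1 : R < (S : Subgroup G) ⊓ Subgroup.normalizer (R : Set G) :=
      lt_inf_normalizer hSp (lt_of_le_of_ne hRS hRSe)
    have hle1 : (S : Subgroup G) ⊓ Subgroup.normalizer (R : Set G) ≤
        (S : Subgroup G) ⊓ Subgroup.normalizer ((W R : Subgroup G) : Set G) :=
      inf_le_inf_left _ (normalizer_le_normalizer_W hW hRp)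
    have hcard : Nat.card R < Nat.card ↥((S : Subgroup G) ⊓ Subgroup.normalizer (Y₂ : Set G)) := by
      have h1 : Nat.card R < Nat.card ↥((S : Subgroup G) ⊓ Subgroup.normalizer ((W R : Subgroup G) : Set G)) :=
        Set.ncard_lt_ncard (hlt1.trans_le hle1) (Set.toFinite _)
      have h2 := Subgroup.card_le_of_le hQ
      rw [card_map_conj] at h2
      omega
    have hRh : R.map (MulAut.conj h).toMonoidHom ≤ (S : Subgroup G) ⊓ Subgroup.normalizer (Y₂ : Set G) :=
      (Subgroup.map_mono hRN).trans hQ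
    have hmemh : ∀ r ∈ R, h * r * h⁻¹ ∈ (S : Subgroup G) ⊓ Subgroup.normalizer (Y₂ : Set G) :=
      fun r hr => hRh ⟨r, hr, rfl⟩
    have hc1 : Goal (R : Set G) h⁻¹ :=
      hP R hRS hm h⁻¹ (fun r hr => by
        rw [inv_inv]
        exact (hmemh r hr).1)
    have hc2 : Goal ((R.map (MulAut.conj h).toMonoidHom : Subgroup G) : Set G) h :=
      hP _ (hRh.trans inf_le_left) (by rw [card_map_conj]; exact hm) h (by
        rintro _ ⟨r, hr, rfl⟩
        have : h⁻¹ * ((MulAut.conj h).toMonoidHom r) * h = r := by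
          simp [MulAut.conj_apply]
          group
        rw [this]
        exact hRS hr)
    have hsN : h * s * h⁻¹ ∈ Subgroup.normalizer (Y₂ : Set G) := by
      rw [← hh]
      show h * s * h⁻¹ ∈ Subgroup.normalizer _
      rw [conj_mem_normalizer_iff]
      have : h⁻¹ * (h * s * h⁻¹) * h = s := by group
      rw [this]
      exact hs
    have hYY : YY p (S : Subgroup G) Y₂ := ⟨hY₂S, hg, W R, h, hZW, hX₁R.trans hRS, hh⟩
    have hc3 : Goal (cj h⁻¹ D) (h * s * h⁻¹) := by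
      refine hL Y₂ hYY (by omega) _ hsN _ ?_ ?_
      · rintro _ ⟨d, hd, rfl⟩
        have := hmemh d (hD hd)
        rw [inv_inv]
        exact this
      · rintro _ ⟨_, ⟨d, hd, rfl⟩, rfl⟩
        have e : (h * s * h⁻¹)⁻¹ * ((h⁻¹)⁻¹ * d * h⁻¹) * (h * s * h⁻¹) = h * (s⁻¹ * d * s) * h⁻¹ := by group
        show (h * s * h⁻¹)⁻¹ * ((h⁻¹)⁻¹ * d * h⁻¹) * (h * s * h⁻¹) ∈ _
        rw [e]
        exact hmemh _ (hsD ⟨d, hd, rfl⟩)
    have hc4 : Goal D h⁻¹ := hG.mono hc1 hD
    have hc5 := hG.trans hc4 subset_rfl hc3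
    have hc6 := hG.trans hc5 (B := ((R.map (MulAut.conj h).toMonoidHom : Subgroup G) : Set G)) (by
      rintro _ ⟨d, hd, rfl⟩
      have e : (h⁻¹ * (h * s * h⁻¹))⁻¹ * d * (h⁻¹ * (h * s * h⁻¹)) = h * (s⁻¹ * d * s) * h⁻¹ := by group
      show (h⁻¹ * (h * s * h⁻¹))⁻¹ * d * (h⁻¹ * (h * s * h⁻¹)) ∈ _
      rw [e]
      exact ⟨_, hsD ⟨d, hd, rfl⟩, rfl⟩) hc2
    have he : h⁻¹ * (h * s * h⁻¹) * h = s := by group
    rwa [he] at hc6

theorem exists_sylowIn {H V : Subgroup G} (hVH : V ≤ H) (hV : IsPGroup p V) :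
    ∃ S₁ : Subgroup G, V ≤ S₁ ∧ S₁ ≤ H ∧ IsPGroup p S₁ ∧ ¬ p ∣ S₁.relIndex H := by
  have hV' : IsPGroup p (V.subgroupOf H) := hV.comap_of_injective H.subtype H.subtype_injective
  obtain ⟨Q, hQ⟩ := hV'.exists_le_sylow
  refine ⟨(Q : Subgroup H).map H.subtype, ?_, Subgroup.map_subtype_le _, Q.isPGroup'.map _, ?_⟩
  · intro v hv
    exact ⟨⟨v, hVH hv⟩, hQ hv, rfl⟩
  · have hsub : ((Q : Subgroup H).map H.subtype).subgroupOf H = (Q : Subgroup H) :=
      Subgroup.comap_map_eq_self_of_injective H.subtype_injective _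
    show ¬ p ∣ (((Q : Subgroup H).map H.subtype).subgroupOf H).index
    rw [hsub]
    exact Q.not_dvd_index

/-- The centralizer is normal in the normalizer, elementwise. -/
theorem conj_mem_centralizer {X : Subgroup G} {n c : G} (hn : n ∈ Subgroup.normalizer (X : Set G))
    (hc : c ∈ Subgroup.centralizer (X : Set G)) : n * c * n⁻¹ ∈ Subgroup.centralizer (X : Set G) := by
  rw [Subgroup.mem_centralizer_iff] at hc ⊢
  intro x hx
  have h1 : n⁻¹ * x * n⁻¹⁻¹ ∈ X := (Subgroup.mem_normalizer_iff.mp (Subgroup.inv_mem _ hn) x).mp hx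
  have h2 := hc _ h1
  calc x * (n * c * n⁻¹) = n * ((n⁻¹ * x * n⁻¹⁻¹) * c) * n⁻¹ := by group
    _ = n * (c * (n⁻¹ * x * n⁻¹⁻¹)) * n⁻¹ := by rw [h2]
    _ = n * c * n⁻¹ * x := by group

/-- `P ∩ C(X)` is Sylow in `C(X)` for `X` fully normalized. -/
theorem not_dvd_centralizer (S : Sylow p G) {X : Subgroup G} (hX : FN p (S : Subgroup G) X) :
    ¬ p ∣ ((S : Subgroup G) ⊓ Subgroup.centralizer (X : Set G)).relIndex (Subgroup.centralizer (X : Set G)) := by
  set N := Subgroup.normalizer (X : Set G) with hN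
  set C := Subgroup.centralizer (X : Set G) with hC
  have hCN : C ≤ N := Subgroup.centralizer_le_normalizer _
  have hRp : IsPGroup p ↥((S : Subgroup G) ⊓ N) := S.isPGroup'.to_le inf_le_left
  obtain ⟨D₁, hD₁, hD₁C, hD₁p, hD₁S⟩ := exists_sylowIn (V := (S : Subgroup G) ⊓ C) (H := C) inf_le_right
    (S.isPGroup'.to_le inf_le_left)
  obtain ⟨k, hk, hkt⟩ := exists_conj_into hRp hX (hD₁C.trans hCN) hD₁p
  have hle : D₁.map (MulAut.conj k).toMonoidHom ≤ (S : Subgroup G) ⊓ C := by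
    rintro _ ⟨t, ht, rfl⟩
    exact ⟨(hkt t ht).1, conj_mem_centralizer hk (hD₁C ht)⟩
  have h1 := Subgroup.card_le_of_le hle
  rw [card_map_conj] at h1
  have he : (S : Subgroup G) ⊓ C = D₁ := Subgroup.eq_of_le_of_card_ge hD₁ h1
  rw [he]
  exact hD₁S

/-- The case `Z(P) ≰ X`. -/
theorem goal_of_not_le (S : Sylow p G) (hG : GoalData (S : Subgroup G) W Goal) {X : Subgroup G}
    (hXS : X ≤ (S : Subgroup G)) (hFN : FN p (S : Subgroup G) X)
    (hZ : ¬ (S : Subgroup G) ⊓ Subgroup.centralizer ((S : Subgroup G) : Set G) ≤ X)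
    (hP : PP' Goal (S : Subgroup G) (Nat.card X + 1)) {n : G} (hn : n ∈ Subgroup.normalizer (X : Set G)) :
    Goal (X : Set G) n := by
  set Z : Subgroup G := (S : Subgroup G) ⊓ Subgroup.centralizer ((S : Subgroup G) : Set G) with hZdef
  set C := Subgroup.centralizer (X : Set G) with hC
  have hSp : IsPGroup p (S : Subgroup G) := S.isPGroup'
  have hT₁ := not_dvd_centralizer S hFN
  set T₁ : Subgroup G := (S : Subgroup G) ⊓ C with hT₁def
  have hT₁C : T₁ ≤ C := inf_le_right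
  have hT₁p : IsPGroup p T₁ := hSp.to_le inf_le_left
  -- the conjugate by `n`
  set T₂ : Subgroup G := T₁.map (MulAut.conj n).toMonoidHom with hT₂
  have hCn : C.map (MulAut.conj n).toMonoidHom = C := by
    refine Subgroup.eq_of_le_of_card_ge ?_ (by rw [card_map_conj])
    rintro _ ⟨c, hc, rfl⟩
    exact conj_mem_centralizer hn hc
  have hT₂C : T₂ ≤ C := by
    rw [← hCn]
    exact Subgroup.map_mono hT₁C
  have hT₂p : IsPGroup p T₂ := hT₁p.map _
  have hT₂S : ¬ p ∣ T₂.relIndex C := by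
    rw [hT₂]
    conv_rhs => rw [← hCn]
    rw [Subgroup.relIndex_map_map_of_injective _ _ (MulAut.conj n).injective]
    exact hT₁
  have hZC : Z ≤ C := by
    rintro z ⟨_, hz⟩
    rw [hC, Subgroup.mem_centralizer_iff]
    intro x hx
    exact Subgroup.mem_centralizer_iff.mp hz x (hXS hx)
  have hZp : IsPGroup p Z := hSp.to_le inf_le_left
  obtain ⟨d, hd, hdZ⟩ := exists_conj_into hT₂p hT₂S hZC hZp
  set b := d⁻¹ * n with hb
  have hbX : ∀ x ∈ X, b⁻¹ * x * b ∈ X := by
    intro x hx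
    have e1 : d * x = x * d := (Subgroup.mem_centralizer_iff.mp hd x hx).symm
    have e : b⁻¹ * x * b = n⁻¹ * x * n⁻¹⁻¹ := by
      rw [hb]
      calc (d⁻¹ * n)⁻¹ * x * (d⁻¹ * n) = n⁻¹ * (d * x) * d⁻¹ * n := by group
        _ = n⁻¹ * (x * d) * d⁻¹ * n := by rw [e1]
        _ = n⁻¹ * x * n⁻¹⁻¹ := by group
    rw [e]
    exact (Subgroup.mem_normalizer_iff.mp (Subgroup.inv_mem _ hn) x).mp hx
  have hbZ : ∀ z ∈ Z, b⁻¹ * z * b ∈ (S : Subgroup G) := by
    intro z hz
    obtain ⟨t, ht, hte⟩ := hdZ z hz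
    have e : b⁻¹ * z * b = t := by
      have h1 : n * t * n⁻¹ = d * z * d⁻¹ := hte
      rw [hb]
      calc (d⁻¹ * n)⁻¹ * z * (d⁻¹ * n) = n⁻¹ * (d * z * d⁻¹) * n := by group
        _ = n⁻¹ * (n * t * n⁻¹) * n := by rw [h1]
        _ = t := by group
    rw [e]
    exact ht.1
  set B₂ : Subgroup G := X ⊔ Z with hB₂
  have hB₂S : B₂ ≤ (S : Subgroup G) := sup_le hXS inf_le_left
  have hlt : X < B₂ := lt_of_le_of_ne le_sup_left (fun he => hZ (by rw [he]; exact le_sup_right))
  have hcard : Nat.card X + 1 ≤ Nat.card B₂ := Set.ncard_lt_ncard hlt (Set.toFinite _)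
  have hcb : ∀ y ∈ B₂, b⁻¹ * y * b ∈ (S : Subgroup G) := by
    have hle : B₂ ≤ (S : Subgroup G).comap (MulAut.conj b⁻¹).toMonoidHom := by
      refine sup_le ?_ ?_
      · intro x hx
        have := hbX x hx
        show b⁻¹ * x * b⁻¹⁻¹ ∈ (S : Subgroup G)
        rw [inv_inv]
        exact hXS this
      · intro z hz
        show b⁻¹ * z * b⁻¹⁻¹ ∈ (S : Subgroup G)
        rw [inv_inv]
        exact hbZ z hz
    intro y hy
    have := hle hy
    have e : (MulAut.conj b⁻¹).toMonoidHom y = b⁻¹ * y * b := by simp [MulAut.conj_apply]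
    rw [← e]
    exact this
  have h1 : Goal (B₂ : Set G) b := hP B₂ hB₂S hcard b hcb
  have h2 : Goal (X : Set G) b := hG.mono h1 (fun x hx => (le_sup_left : X ≤ B₂) hx)
  have h3 : Goal (X : Set G) d := hG.central hd
  have h4 := hG.trans h3 (B := (X : Set G)) (by
    rintro _ ⟨x, hx, rfl⟩
    have e1 : d * x = x * d := (Subgroup.mem_centralizer_iff.mp hd x hx).symm
    have e : d⁻¹ * x * d = x := by
      calc d⁻¹ * x * d = d⁻¹ * (x * d) := by group
        _ = d⁻¹ * (d * x) := by rw [e1]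
        _ = x := by group
    show d⁻¹ * x * d ∈ X
    rw [e]
    exact hx) h2
  have e : d * b = n := by
    rw [hb]
    group
  rwa [e] at h4

/-- The descent on the order of subgroups. -/
theorem pp_step (S : Sylow p G) (hG : GoalData (S : Subgroup G) W Goal)
    (hW : IsConjugacyFunctor p W) {m : ℕ}
    (hPP : PP' Goal (S : Subgroup G) (m + 1)) (hL : LL' Goal p (S : Subgroup G) (m + 1)) :
    PP' Goal (S : Subgroup G) m := by
  intro B hBP hm g hg
  have hSp : IsPGroup p (S : Subgroup G) := S.isPGroup'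
  have hBp : IsPGroup p B := hSp.to_le hBP
  by_cases hm' : m + 1 ≤ Nat.card B
  · exact hPP B hBP hm' g hg
  have hBcard : Nat.card B = m := by omega
  by_cases hBSe : B = (S : Subgroup G)
  · subst hBSe
    have hgN : g ∈ Subgroup.normalizer (((S : Subgroup G) : Subgroup G) : Set G) := by
      refine inv_mem_iff.mp ?_
      apply mem_normalizer_of_map_conj
      have hle : (S : Subgroup G).map (MulAut.conj g⁻¹).toMonoidHom ≤ (S : Subgroup G) := by
        rintro _ ⟨t, ht, rfl⟩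
        have := hg t ht
        have e : (MulAut.conj g⁻¹).toMonoidHom t = g⁻¹ * t * g := by simp
        rw [e]
        exact this
      exact Subgroup.eq_of_le_of_card_ge hle (by rw [card_map_conj])
    refine hG.gen subset_rfl (normalizer_le_normalizer_W hW hSp hgN) ?_
    rintro _ ⟨t, ht, rfl⟩
    exact hg t ht
  obtain ⟨g₁, hg₁⟩ := exists_fully_normalized S B
  set X₁ : Subgroup G := B.map (MulAut.conj g₁).toMonoidHom with hX₁
  have hXp : IsPGroup p X₁ := hBp.map _
  have hXR : X₁ ≤ (S : Subgroup G) ⊓ Subgroup.normalizer (X₁ : Set G) := le_of_FN hSp hXp hg₁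
  set B' : Subgroup G := B.map (MulAut.conj g⁻¹).toMonoidHom with hB'
  have hB'S : B' ≤ (S : Subgroup G) := by
    rintro _ ⟨b, hb, rfl⟩
    have := hg b hb
    have e : (MulAut.conj g⁻¹).toMonoidHom b = g⁻¹ * b * g := by simp
    rw [e]
    exact this
  have hB'card : Nat.card B' = Nat.card B := card_map_conj B g⁻¹
  have hB'ne : B' ≠ (S : Subgroup G) := by
    intro he
    apply hBSe
    refine Subgroup.eq_of_le_of_card_ge hBP ?_
    rw [← he, hB'card]
  have hQ₁p : IsPGroup p ↥((S : Subgroup G) ⊓ Subgroup.normalizer (B : Set G)) := hSp.to_le inf_le_left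
  have hQ₂p : IsPGroup p ↥((S : Subgroup G) ⊓ Subgroup.normalizer (B' : Set G)) := hSp.to_le inf_le_left
  obtain ⟨h₁, hh₁, hQ₁⟩ := exists_conj_of_FN S hg₁ rfl hQ₁p inf_le_right
  obtain ⟨h₂, hh₂, hQ₂⟩ := exists_conj_of_FN S hg₁ (Z := B') (f := g₁ * g)
    (by rw [hB', map_conj_map_conj]; congr 3; group) hQ₂p inf_le_right
  have hlt₁ : B < (S : Subgroup G) ⊓ Subgroup.normalizer (B : Set G) :=
    lt_inf_normalizer hSp (lt_of_le_of_ne hBP hBSe)
  have hlt₂ : B' < (S : Subgroup G) ⊓ Subgroup.normalizer (B' : Set G) :=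
    lt_inf_normalizer hSp (lt_of_le_of_ne hB'S hB'ne)
  have hcard₁ : m + 1 ≤ Nat.card ↥((S : Subgroup G) ⊓ Subgroup.normalizer (B : Set G)) := by
    have : Nat.card B < Nat.card ↥((S : Subgroup G) ⊓ Subgroup.normalizer (B : Set G)) := Set.ncard_lt_ncard hlt₁ (Set.toFinite _)
    omega
  have hcard₂ : m + 1 ≤ Nat.card ↥((S : Subgroup G) ⊓ Subgroup.normalizer (B' : Set G)) := by
    have : Nat.card B' < Nat.card ↥((S : Subgroup G) ⊓ Subgroup.normalizer (B' : Set G)) := Set.ncard_lt_ncard hlt₂ (Set.toFinite _)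
    omega
  have hA : Goal (((S : Subgroup G) ⊓ Subgroup.normalizer (B : Set G) : Subgroup G) : Set G) h₁⁻¹ :=
    hPP _ inf_le_left hcard₁ h₁⁻¹ (fun q hq => by
      have := (hQ₁ ⟨q, hq, rfl⟩).1
      rw [inv_inv]
      exact this)
  set D₂ : Subgroup G := ((S : Subgroup G) ⊓ Subgroup.normalizer (B' : Set G) : Subgroup G).map (MulAut.conj h₂).toMonoidHom with hD₂
  have hC : Goal (D₂ : Set G) h₂ := by
    refine hPP _ (hQ₂.trans inf_le_left) (by rw [hD₂, card_map_conj]; exact hcard₂) h₂ ?_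
    rintro _ ⟨r, hr, rfl⟩
    have : h₂⁻¹ * ((MulAut.conj h₂).toMonoidHom r) * h₂ = r := by
      simp [MulAut.conj_apply]
      group
    rw [this]
    exact hr.1
  set n : G := h₁ * g * h₂⁻¹ with hn
  have hnN : n ∈ Subgroup.normalizer (X₁ : Set G) := by
    refine inv_mem_iff.mp ?_
    apply mem_normalizer_of_map_conj
    conv_lhs => rw [← hh₁]
    rw [map_conj_map_conj]
    have : n⁻¹ * h₁ = h₂ * g⁻¹ := by rw [hn]; group
    rw [this, ← map_conj_map_conj, ← hB', hh₂]
  have hXcard : Nat.card X₁ = m := by rw [hX₁, card_map_conj]; exact hBcard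
  have hB₃ : Goal (X₁ : Set G) n := by
    by_cases hZX : (S : Subgroup G) ⊓ Subgroup.centralizer ((S : Subgroup G) : Set G) ≤ X₁
    · have hh : h₁ ∈ (⊤ : Subgroup G) := Subgroup.mem_top _
      refine hL X₁ ⟨hXR.trans inf_le_left, hg₁, X₁, 1, hZX, hXR.trans inf_le_left, ?_⟩ ?_ n hnN _
        (fun a ha => hXR ha) ?_
      · ext y
        simp
      · have h2 := Subgroup.card_le_of_le hQ₁
        rw [card_map_conj] at h2
        omega
      · rintro _ ⟨x, hx, rfl⟩
        have := (Subgroup.mem_normalizer_iff.mp (Subgroup.inv_mem _ hnN) x).mp hx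
        rw [inv_inv] at this
        exact hXR this
    · refine goal_of_not_le S hG (hXR.trans inf_le_left) hg₁ hZX ?_ hnN
      rw [hXcard]
      exact hPP
  have hh₁mem : ∀ b ∈ B, h₁ * b * h₁⁻¹ ∈ X₁ := by
    intro b hb
    rw [← hh₁]
    exact ⟨b, hb, rfl⟩
  have c1 : Goal (B : Set G) h₁⁻¹ := hG.mono hA (fun b hb => hlt₁.le hb)
  have c2 : Goal (B : Set G) (h₁⁻¹ * n) := hG.trans c1 (by
    rintro _ ⟨b, hb, rfl⟩
    have := hh₁mem b hb
    rw [inv_inv]
    exact this) hB₃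
  have c3 : Goal (B : Set G) (h₁⁻¹ * n * h₂) := hG.trans c2 (by
    rintro _ ⟨b, hb, rfl⟩
    have e : (h₁⁻¹ * n)⁻¹ * b * (h₁⁻¹ * n) = h₂ * (g⁻¹ * b * g) * h₂⁻¹ := by
      rw [hn]
      group
    show (h₁⁻¹ * n)⁻¹ * b * (h₁⁻¹ * n) ∈ _
    rw [e]
    refine ⟨g⁻¹ * b * g, hlt₂.le ⟨b, hb, ?_⟩, rfl⟩
    simp) hC
  have e : h₁⁻¹ * n * h₂ = g := by
    rw [hn]
    group
  rwa [e] at c3

/-- **Main skeleton.** -/
theorem goal_main (S : Sylow p G) (hW : IsConjugacyFunctor p W)
    (hWZ : ∀ H : Subgroup G, IsPGroup p ↥H → H ⊓ Subgroup.centralizer ((H : Subgroup G) : Set G) ≤ W H)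
    (hG : GoalData (S : Subgroup G) W Goal)
    (hloc : ∀ Y : Subgroup G, YY p (S : Subgroup G) Y →
      (∀ (D : Set G) (s : G),
        s ∈ Subgroup.normalizer ((W ((S : Subgroup G) ⊓ Subgroup.normalizer (Y : Set G)) : Subgroup G) : Set G) →
        D ⊆ ((S : Subgroup G) ⊓ Subgroup.normalizer (Y : Set G) : Subgroup G) →
        cj s D ⊆ ((S : Subgroup G) ⊓ Subgroup.normalizer (Y : Set G) : Subgroup G) → Goal D s) →
      ∀ y ∈ Subgroup.normalizer (Y : Set G), ∀ A : Set G,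
        A ⊆ ((S : Subgroup G) ⊓ Subgroup.normalizer (Y : Set G) : Subgroup G) →
        cj y A ⊆ ((S : Subgroup G) ⊓ Subgroup.normalizer (Y : Set G) : Subgroup G) → Goal A y)
    {A : Set G} {g : G} (hA : A ⊆ (S : Subgroup G)) (hAg : cj g A ⊆ (S : Subgroup G)) : Goal A g := by
  have key : ∀ (k m : ℕ), m + k = Nat.card (S : Subgroup G) + 1 →
      PP' Goal (S : Subgroup G) m ∧ LL' Goal p (S : Subgroup G) m := by
    intro k
    induction k with
    | zero =>
      intro m hm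
      constructor
      · intro B hB hc
        have := Subgroup.card_le_of_le hB
        omega
      · intro Y _ hc
        have := Subgroup.card_le_of_le (inf_le_left : (S : Subgroup G) ⊓ Subgroup.normalizer (Y : Set G) ≤ _)
        omega
    | succ k ih =>
      intro m hm
      obtain ⟨h1, h2⟩ := ih (m + 1) (by omega)
      have h3 := pp_step S hG hW h1 h2
      refine ⟨h3, ?_⟩
      intro Y hY hc y hy A' hA' hAy
      exact hloc Y hY (fun D s hs hD hDs => step_claim S hW hWZ hG h3 h2 hY.1 hc hs hD hDs) y hy A' hA' hAy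
  obtain ⟨hP, -⟩ := key (Nat.card (S : Subgroup G) + 1) 0 (by omega)
  have h1 : Subgroup.closure A ≤ (S : Subgroup G) := (Subgroup.closure_le _).mpr hA
  have h2 : ∀ a ∈ Subgroup.closure A, g⁻¹ * a * g ∈ (S : Subgroup G) := by
    intro a ha
    induction ha using Subgroup.closure_induction with
    | mem x hx => exact hAg ⟨x, hx, rfl⟩
    | one => simp
    | mul x y _ _ hx hy =>
      have : g⁻¹ * (x * y) * g = (g⁻¹ * x * g) * (g⁻¹ * y * g) := by group
      rw [this]
      exact Subgroup.mul_mem _ hx hy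
    | inv x _ hx =>
      have : g⁻¹ * x⁻¹ * g = (g⁻¹ * x * g)⁻¹ := by group
      rw [this]
      exact Subgroup.inv_mem _ hx
  exact hG.mono (hP _ h1 (Nat.zero_le _) g h2) Subgroup.subset_closure

/-- Transport of a local Sylow subgroup: there is `K` carrying `H` to `Y` and `Q₀` to `N_P(Y)`. -/
theorem exists_transport (S : Sylow p G) {Y H Q₀ : Subgroup G} {k : G}
    (hk : H.map (MulAut.conj k).toMonoidHom = Y) (hFN : FN p (S : Subgroup G) Y)
    (hQ₀ : Q₀ ≤ Subgroup.normalizer (H : Set G)) (hQ₀p : IsPGroup p Q₀)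
    (hQ₀S : ¬ p ∣ Q₀.relIndex (Subgroup.normalizer (H : Set G))) :
    ∃ K : G, H.map (MulAut.conj K).toMonoidHom = Y ∧
      Q₀.map (MulAut.conj K).toMonoidHom = (S : Subgroup G) ⊓ Subgroup.normalizer (Y : Set G) := by
  set N := Subgroup.normalizer (Y : Set G) with hN
  have hNm : (Subgroup.normalizer (H : Set G)).map (MulAut.conj k).toMonoidHom = N := by
    rw [hN, ← hk, normalizer_map_conj]
  have hle : Q₀.map (MulAut.conj k).toMonoidHom ≤ N := by
    rw [← hNm]
    exact Subgroup.map_mono hQ₀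
  have hRp : IsPGroup p ↥((S : Subgroup G) ⊓ N) := S.isPGroup'.to_le inf_le_left
  have h1 : ¬ p ∣ (Q₀.map (MulAut.conj k).toMonoidHom).relIndex N := by
    rw [← hNm, Subgroup.relIndex_map_map_of_injective _ _ (MulAut.conj k).injective]
    exact hQ₀S
  obtain ⟨k', hk', hkm⟩ := exists_conj_eq_of_sylows inf_le_right hRp hFN hle (hQ₀p.map _) h1
  refine ⟨k' * k, ?_, ?_⟩
  · rw [← map_conj_map_conj, hk]
    exact map_conj_of_mem_normalizer hk'
  · rw [← map_conj_map_conj]
    exact hkm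

end Cfsg.Agent.Lib.CentralFunctor
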