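import Mathlib
import Cfsg.Agent.Lib.CharBasic
import Cfsg.Agent.Lib.CharValues
import Cfsg.Prelude.Def_Blocks

/-!
# Embedding solvable groups into central quotients of groups of central type

If `T` has a bijective `1`-cocycle `π : T → A` into an abelian group `A`, the operators
`f ↦ (t ↦ z χ(π t) f(s⁻¹ t))` on the functions on `T` (`z` a root of unity, `χ ∈ Â`, `s ∈ T`) form a group
`H` with faithful irreducible natural character of degree `|T|`, centre the scalars, and
`T ≤ H / Z(H)`. Iterated wreath products of cyclic groups of prime order have bijective cocycles and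
contain every solvable group with the same prime divisors.
-/

set_option autoImplicit false
set_option linter.style.haveILetI false
set_option linter.unusedVariables false
set_option linter.unusedSectionVars false

namespace Cfsg.Agent.Lib.CentralTypeEmb

open Cfsg Cfsg.Agent.Lib.CharBasic

universe u

/-! ### The group attached to a bijective cocycle -/

section Op

variable {T : Type u} [Group T] {A : Type u} [AddCommGroup A] [DistribMulAction T A] (π : T → A)

/-- The operators. -/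
def Phi (z : ℂ) (χ : AddChar A ℂ) (s : T) : Module.End ℂ (T → ℂ) where
  toFun f t := z * χ (π t) * f (s⁻¹ * t)
  map_add' f g := by
    funext t
    simp [mul_add]
  map_smul' c f := by
    funext t
    simp only [Pi.smul_apply, smul_eq_mul, RingHom.id_apply]
    ring

theorem Phi_apply (z : ℂ) (χ : AddChar A ℂ) (s : T) (f : T → ℂ) (t : T) :
    Phi π z χ s f t = z * χ (π t) * f (s⁻¹ * t) := rfl

/-- The action on characters. -/
def act (s : T) (χ : AddChar A ℂ) : AddChar A ℂ :=
  χ.compAddMonoidHom (DistribSMul.toAddMonoidHom A s⁻¹)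

theorem act_apply (s : T) (χ : AddChar A ℂ) (a : A) : act s χ a = χ (s⁻¹ • a) := rfl

variable {π}
variable (hc : ∀ s t, π (s * t) = π s + s • π t)

include hc

theorem Phi_mul (z z' : ℂ) (χ χ' : AddChar A ℂ) (s s' : T) :
    Phi π z χ s * Phi π z' χ' s' = Phi π (z * z' * χ' (π s⁻¹)) (χ * act s χ') (s * s') := by
  apply LinearMap.ext
  intro f
  funext t
  rw [Module.End.mul_apply, Phi_apply, Phi_apply, Phi_apply, hc s⁻¹ t, AddChar.map_add_eq_mul,
    AddChar.mul_apply, act_apply, mul_inv_rev, mul_assoc s'⁻¹]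
  ring

theorem pi_one : π 1 = 0 := by
  have h := hc 1 1
  rw [mul_one, one_smul] at h
  exact left_eq_add.mp h

theorem Phi_one : Phi π 1 (1 : AddChar A ℂ) (1 : T) = 1 := by
  apply LinearMap.ext
  intro f
  funext t
  rw [Phi_apply]
  simp

theorem act_act (s : T) (ψ : AddChar A ℂ) : act s (act s⁻¹ ψ) = ψ := by
  ext a
  rw [act_apply, act_apply, inv_inv, smul_inv_smul]

theorem act_one (s : T) : act s (1 : AddChar A ℂ) = 1 := by
  ext a
  rw [act_apply]
  rfl

/-- The inverse data. -/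
noncomputable def invZ (z : ℂ) (χ : AddChar A ℂ) (s : T) : ℂ :=
  (z * (act s⁻¹ χ⁻¹) (π s⁻¹))⁻¹

omit hc in
theorem char_ne_zero (χ : AddChar A ℂ) (a : A) : χ a ≠ 0 := by
  intro h
  have h1 := AddChar.map_add_eq_mul χ a (-a)
  rw [add_neg_cancel, AddChar.map_zero_eq_one, h, zero_mul] at h1
  exact one_ne_zero h1

theorem Phi_mul_inv {z : ℂ} (hz : z ≠ 0) (χ : AddChar A ℂ) (s : T) :
    Phi π z χ s * Phi π (invZ (π := π) z χ s) (act s⁻¹ χ⁻¹) s⁻¹ = 1 := by
  rw [Phi_mul hc, act_act hc, mul_inv_cancel, mul_inv_cancel]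
  have h1 : z * invZ (π := π) z χ s * (act s⁻¹ χ⁻¹) (π s⁻¹) = 1 := by
    unfold invZ
    have h2 := char_ne_zero (act s⁻¹ χ⁻¹) (π s⁻¹)
    field_simp
  rw [h1]
  exact Phi_one hc

end Op

section Group

variable {T : Type u} [Group T] [Finite T] {A : Type u} [AddCommGroup A] [DistribMulAction T A]
  {π : T → A} (hc : ∀ s t, π (s * t) = π s + s • π t)

include hc

/-- The unit attached to the data. -/
noncomputable def mkUnit (z : ℂˣ) (χ : AddChar A ℂ) (s : T) : (Module.End ℂ (T → ℂ))ˣ where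
  val := Phi π z χ s
  inv := Phi π (invZ (π := π) z χ s) (act s⁻¹ χ⁻¹) s⁻¹
  val_inv := Phi_mul_inv hc z.ne_zero χ s
  inv_val := by
    classical
    haveI : Fintype T := Fintype.ofFinite T
    exact mul_eq_one_comm.mp (Phi_mul_inv hc z.ne_zero χ s)

omit [Finite T] in
theorem mkUnit_val [Finite T] (z : ℂˣ) (χ : AddChar A ℂ) (s : T) :
    ((mkUnit hc z χ s : (Module.End ℂ (T → ℂ))ˣ) : Module.End ℂ (T → ℂ)) = Phi π z χ s := rfl

variable {m : ℕ} (hm : ∀ a : A, m • a = 0)

include hm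

omit hc in
theorem char_pow (χ : AddChar A ℂ) (a : A) : χ a ^ m = 1 := by
  rw [← AddChar.map_nsmul_eq_pow, hm, AddChar.map_zero_eq_one]

/-- The unit of the value of a character. -/
noncomputable def charU (χ : AddChar A ℂ) (a : A) : ℂˣ := Units.mk0 (χ a) (char_ne_zero χ a)

omit hc hm in
theorem charU_val (χ : AddChar A ℂ) (a : A) : ((charU χ a : ℂˣ) : ℂ) = χ a := rfl

theorem mkUnit_mul (z z' : ℂˣ) (χ χ' : AddChar A ℂ) (s s' : T) :
    mkUnit hc z χ s * mkUnit hc z' χ' s' =
      mkUnit hc (z * z' * charU χ' (π s⁻¹)) (χ * act s χ') (s * s') := by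
  apply Units.ext
  show Phi π z χ s * Phi π z' χ' s' = Phi π _ _ _
  rw [Phi_mul hc]
  rfl

/-- The group. -/
noncomputable def Hgp : Subgroup (Module.End ℂ (T → ℂ))ˣ where
  carrier := {u | ∃ z ∈ rootsOfUnity m ℂ, ∃ χ : AddChar A ℂ, ∃ s : T, u = mkUnit hc z χ s}
  mul_mem' := by
    rintro _ _ ⟨z, hz, χ, s, rfl⟩ ⟨z', hz', χ', s', rfl⟩
    refine ⟨_, ?_, _, _, mkUnit_mul hc hm z z' χ χ' s s'⟩
    refine Subgroup.mul_mem _ (Subgroup.mul_mem _ hz hz') ?_
    rw [mem_rootsOfUnity]
    apply Units.ext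
    rw [Units.val_pow_eq_pow_val, charU_val, char_pow hm]
    rfl
  one_mem' := by
    refine ⟨1, Subgroup.one_mem _, 1, 1, ?_⟩
    apply Units.ext
    exact (Phi_one hc).symm
  inv_mem' := by
    rintro _ ⟨z, hz, χ, s, rfl⟩
    refine ⟨z⁻¹ * (charU (act s⁻¹ χ⁻¹) (π s⁻¹))⁻¹, ?_, act s⁻¹ χ⁻¹, s⁻¹, ?_⟩
    · exact Subgroup.mul_mem _ (Subgroup.inv_mem _ hz) (Subgroup.inv_mem _ (show charU (act s⁻¹ χ⁻¹) (π s⁻¹) ∈ rootsOfUnity m ℂ by
        rw [mem_rootsOfUnity]
        apply Units.ext
        rw [Units.val_pow_eq_pow_val, charU_val, char_pow hm]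
        rfl))
    · apply Units.ext
      apply Units.inv_eq_of_mul_eq_one_right
      show Phi π z χ s * Phi π (((z⁻¹ * (charU (act s⁻¹ χ⁻¹) (π s⁻¹))⁻¹ : ℂˣ)) : ℂ) (act s⁻¹ χ⁻¹) s⁻¹ = 1
      have h := Phi_mul_inv hc z.ne_zero χ s
      have e : ((z⁻¹ * (charU (act s⁻¹ χ⁻¹) (π s⁻¹))⁻¹ : ℂˣ) : ℂ) = invZ (π := π) z χ s := by
        unfold invZ
        rw [Units.val_mul, Units.val_inv_eq_inv_val, Units.val_inv_eq_inv_val, charU_val, mul_inv]
      rw [e]
      exact h

theorem mem_Hgp {u : (Module.End ℂ (T → ℂ))ˣ} :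
    u ∈ Hgp hc hm ↔ ∃ z ∈ rootsOfUnity m ℂ, ∃ χ : AddChar A ℂ, ∃ s : T, u = mkUnit hc z χ s :=
  Iff.rfl

omit hm

/-- Injectivity of the parametrization. -/
theorem mkUnit_inj (hb : Function.Injective π) (hs : Function.Surjective π) {z z' : ℂˣ} {χ χ' : AddChar A ℂ} {s s' : T}
    (h : mkUnit hc z χ s = mkUnit hc z' χ' s') : z = z' ∧ χ = χ' ∧ s = s' := by
  classical
  have h0 : Phi π z χ s = Phi π z' χ' s' := congrArg Units.val h
  have hs' : s = s' := by
    have h1 := congrFun (LinearMap.congr_fun h0 (fun t => if t = 1 then (1 : ℂ) else 0)) s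
    rw [Phi_apply, Phi_apply] at h1
    simp only [inv_mul_cancel, if_true, mul_one] at h1
    by_contra hne
    have hne' : s'⁻¹ * s ≠ 1 := by
      intro h2
      exact hne (inv_mul_eq_one.mp h2).symm
    rw [if_neg hne', mul_zero] at h1
    exact mul_ne_zero z.ne_zero (char_ne_zero χ _) h1
  subst hs'
  have h1 : ∀ t, (z : ℂ) * χ (π t) = z' * χ' (π t) := by
    intro t
    have h2 := congrFun (LinearMap.congr_fun h0 (fun _ => (1 : ℂ))) t
    rw [Phi_apply, Phi_apply] at h2
    simpa using h2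
  have hz : z = z' := by
    have h2 := h1 1
    rw [pi_one hc, AddChar.map_zero_eq_one, AddChar.map_zero_eq_one, mul_one, mul_one] at h2
    exact Units.ext h2
  subst hz
  refine ⟨rfl, ?_, rfl⟩
  ext a
  obtain ⟨t, rfl⟩ := hs a
  exact mul_left_cancel₀ z.ne_zero (h1 t)

end Group

section Props

variable {T : Type u} [Group T] [Finite T] {A : Type u} [AddCommGroup A] [DistribMulAction T A]
  {π : T → A} (hc : ∀ s t, π (s * t) = π s + s • π t) {m : ℕ} (hm : ∀ a : A, m • a = 0)

/-- The natural representation. -/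
noncomputable def rho : Representation ℂ (Hgp hc hm) (T → ℂ) :=
  (Units.coeHom (Module.End ℂ (T → ℂ))).comp (Hgp hc hm).subtype

theorem rho_apply (z : ℂˣ) (hz : z ∈ rootsOfUnity m ℂ) (χ : AddChar A ℂ) (s : T) :
    rho hc hm ⟨mkUnit hc z χ s, z, hz, χ, s, rfl⟩ = Phi π z χ s := rfl

theorem charU_one (a : A) : charU (1 : AddChar A ℂ) a = 1 := by
  apply Units.ext
  rw [charU_val]
  rfl

include hm in
theorem mem_rootsOfUnity_charU (χ : AddChar A ℂ) (a : A) : charU χ a ∈ rootsOfUnity m ℂ := by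
  rw [mem_rootsOfUnity]
  apply Units.ext
  rw [Units.val_pow_eq_pow_val, charU_val, char_pow hm]
  rfl

/-- The basic units, as elements of `H`. -/
noncomputable def elt (z : rootsOfUnity m ℂ) (χ : AddChar A ℂ) (s : T) : Hgp hc hm :=
  ⟨mkUnit hc z χ s, z, z.2, χ, s, rfl⟩

theorem elt_surj (u : Hgp hc hm) : ∃ z χ s, u = elt hc hm z χ s := by
  obtain ⟨u, z, hz, χ, s, rfl⟩ := u
  exact ⟨⟨z, hz⟩, χ, s, rfl⟩

theorem elt_mul (z z' : rootsOfUnity m ℂ) (χ χ' : AddChar A ℂ) (s s' : T) :
    elt hc hm z χ s * elt hc hm z' χ' s' =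
      elt hc hm (z * z' * ⟨charU χ' (π s⁻¹), mem_rootsOfUnity_charU hm _ _⟩) (χ * act s χ') (s * s') := by
  apply Subtype.ext
  exact mkUnit_mul hc hm _ _ _ _ _ _

theorem elt_inj (hb : Function.Bijective π) {z z' : rootsOfUnity m ℂ} {χ χ' : AddChar A ℂ} {s s' : T}
    (h : elt hc hm z χ s = elt hc hm z' χ' s') : z = z' ∧ χ = χ' ∧ s = s' := by
  have h1 := mkUnit_inj hc hb.1 hb.2 (congrArg Subtype.val h)
  exact ⟨Subtype.ext h1.1, h1.2⟩

omit [Finite T] in
theorem act_one' [Finite T] (χ : AddChar A ℂ) : act (1 : T) χ = χ := by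
  ext a
  rw [act_apply, inv_one, one_smul]

/-- The parametrization is a bijection. -/
noncomputable def paramEquiv (hb : Function.Bijective π) :
    (rootsOfUnity m ℂ × AddChar A ℂ × T) ≃ Hgp hc hm :=
  Equiv.ofBijective (fun x => elt hc hm x.1 x.2.1 x.2.2) (by
    constructor
    · rintro ⟨z, χ, s⟩ ⟨z', χ', s'⟩ h
      obtain ⟨h1, h2, h3⟩ := elt_inj hc hm hb h
      subst h1 h2 h3
      rfl
    · intro u
      obtain ⟨z, χ, s, rfl⟩ := elt_surj hc hm u
      exact ⟨(z, χ, s), rfl⟩)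

theorem finite_A (hb : Function.Bijective π) : Finite A :=
  Finite.of_surjective π hb.2

theorem card_A (hb : Function.Bijective π) : Nat.card A = Nat.card T :=
  (Nat.card_eq_of_bijective π hb).symm

theorem finite_Hgp (hb : Function.Bijective π) [NeZero m] : Finite (Hgp hc hm) := by
  haveI := finite_A (π := π) hb
  classical
  haveI : Fintype A := Fintype.ofFinite A
  exact Finite.of_equiv _ (paramEquiv hc hm hb)

omit [Finite T] in
theorem card_rootsOfUnity' [NeZero m] : Nat.card (rootsOfUnity m ℂ) = m :=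
  Complex.card_rootsOfUnity m

theorem card_addChar' [Finite A] : Nat.card (AddChar A ℂ) = Nat.card A := by
  classical
  haveI : Fintype A := Fintype.ofFinite A
  rw [Nat.card_eq_fintype_card, Nat.card_eq_fintype_card]
  exact AddChar.card_eq

theorem card_Hgp (hb : Function.Bijective π) [NeZero m] :
    Nat.card (Hgp hc hm) = m * (Nat.card T * Nat.card T) := by
  haveI := finite_A (π := π) hb
  rw [← Nat.card_congr (paramEquiv hc hm hb), Nat.card_prod, Nat.card_prod, card_rootsOfUnity',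
    card_addChar', card_A hb]

/-- The central elements. -/
theorem elt_mem_center (z : rootsOfUnity m ℂ) :
    elt hc hm z 1 (1 : T) ∈ Subgroup.center (Hgp hc hm) := by
  rw [Subgroup.mem_center_iff]
  intro u
  obtain ⟨z', χ', s', rfl⟩ := elt_surj hc hm u
  rw [elt_mul, elt_mul]
  have h1 : (⟨charU χ' (π (1 : T)⁻¹), mem_rootsOfUnity_charU hm _ _⟩ : rootsOfUnity m ℂ) = 1 := by
    apply Subtype.ext
    rw [inv_one, pi_one hc]
    apply Units.ext
    exact AddChar.map_zero_eq_one χ'
  have h2 : (⟨charU (1 : AddChar A ℂ) (π s'⁻¹), mem_rootsOfUnity_charU hm _ _⟩ : rootsOfUnity m ℂ) = 1 := by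
    apply Subtype.ext
    exact charU_one _
  rw [h1, h2, act_one hc, act_one' , mul_one, mul_one, one_mul, mul_one, one_mul, mul_comm z, mul_one]

theorem eq_of_mem_center (hb : Function.Bijective π) (z : rootsOfUnity m ℂ) (χ : AddChar A ℂ) (s : T)
    (h : elt hc hm z χ s ∈ Subgroup.center (Hgp hc hm)) : χ = 1 ∧ s = 1 := by
  haveI := finite_A (π := π) hb
  rw [Subgroup.mem_center_iff] at h
  have hs : s = 1 := by
    have hall : ∀ ψ : AddChar A ℂ, ψ (π s⁻¹) = 1 := by
      intro ψ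
      have h1 := h (elt hc hm 1 ψ 1)
      rw [elt_mul, elt_mul] at h1
      obtain ⟨h2, -, -⟩ := elt_inj hc hm hb h1
      have h3 : ((⟨charU χ (π (1 : T)⁻¹), mem_rootsOfUnity_charU hm _ _⟩ : rootsOfUnity m ℂ)) = 1 := by
        apply Subtype.ext
        rw [inv_one, pi_one hc]
        apply Units.ext
        exact AddChar.map_zero_eq_one χ
      rw [h3, mul_one, one_mul, mul_one] at h2
      have h4 : ((z : ℂˣ) : ℂ) * ψ (π s⁻¹) = ((z : ℂˣ) : ℂ) := by
        have h6 := congrArg (fun x : rootsOfUnity m ℂ => ((x : ℂˣ) : ℂ)) h2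
        simpa [charU_val] using h6.symm
      exact mul_left_cancel₀ ((z : ℂˣ)).ne_zero (h4.trans (mul_one _).symm)
    have h0 := AddChar.forall_apply_eq_zero.mp hall
    have h1 : π s⁻¹ = π 1 := by rw [h0, pi_one hc]
    have h2 := hb.1 h1
    exact inv_eq_one.mp h2
  subst hs
  refine ⟨?_, rfl⟩
  ext a
  obtain ⟨r, rfl⟩ := hb.2 a
  have h1 := h (elt hc hm 1 1 r⁻¹)
  rw [elt_mul, elt_mul] at h1
  obtain ⟨h2, -, -⟩ := elt_inj hc hm hb h1
  have h3 : ((⟨charU (1 : AddChar A ℂ) (π (1 : T)⁻¹), mem_rootsOfUnity_charU hm _ _⟩ : rootsOfUnity m ℂ)) = 1 := by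
    apply Subtype.ext
    exact charU_one _
  rw [h3, mul_one, one_mul, mul_one] at h2
  have h4 : ((z : ℂˣ) : ℂ) * χ (π r) = ((z : ℂˣ) : ℂ) := by
    have h6 := congrArg (fun x : rootsOfUnity m ℂ => ((x : ℂˣ) : ℂ)) h2
    simpa [charU_val] using h6
  have h5 : χ (π r) = 1 := mul_left_cancel₀ ((z : ℂˣ)).ne_zero (h4.trans (mul_one _).symm)
  rw [h5]
  rfl

end Props

section Main

variable {T : Type u} [Group T] [Finite T] {A : Type u} [AddCommGroup A] [DistribMulAction T A]
  {π : T → A} (hc : ∀ s t, π (s * t) = π s + s • π t) {m : ℕ} (hm : ∀ a : A, m • a = 0)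

theorem card_center (hb : Function.Bijective π) [NeZero m] :
    Nat.card (Subgroup.center (Hgp hc hm)) = m := by
  let e : rootsOfUnity m ℂ ≃ Subgroup.center (Hgp hc hm) :=
    Equiv.ofBijective (fun z => ⟨elt hc hm z 1 1, elt_mem_center hc hm z⟩) (by
      constructor
      · intro z z' h
        exact (elt_inj hc hm hb (congrArg Subtype.val h)).1
      · rintro ⟨u, hu⟩
        obtain ⟨z, χ, s, rfl⟩ := elt_surj hc hm u
        obtain ⟨h1, h2⟩ := eq_of_mem_center hc hm hb z χ s hu
        subst h1 h2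
        exact ⟨z, rfl⟩)
  rw [← Nat.card_congr e, card_rootsOfUnity']

theorem rho_irreducible (hb : Function.Bijective π) [NeZero m] : (rho hc hm).IsIrreducible := by
  classical
  haveI := finite_A (π := π) hb
  haveI : Fintype A := Fintype.ofFinite A
  haveI : Fintype T := Fintype.ofFinite T
  rw [isIrreducible_iff]
  refine ⟨inferInstance, ?_⟩
  intro U hU
  by_cases hbot : U = ⊥
  · left
    exact hbot
  right
  obtain ⟨f, hfU, hf0⟩ := U.exists_mem_ne_zero_of_ne_bot hbot
  obtain ⟨t₀, ht₀⟩ : ∃ t, f t ≠ 0 := Function.ne_iff.mp hf0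
  have h1 : ∀ ψ : AddChar A ℂ, Phi π 1 ψ 1 f ∈ U := fun ψ => hU (elt hc hm 1 ψ 1) f hfU
  have h2 : ∑ ψ : AddChar A ℂ, ψ (-(π t₀)) • Phi π 1 ψ 1 f ∈ U :=
    Submodule.sum_mem _ (fun ψ _ => U.smul_mem _ (h1 ψ))
  have hA : (Fintype.card A : ℂ) ≠ 0 := Nat.cast_ne_zero.mpr Fintype.card_ne_zero
  have h3 : (∑ ψ : AddChar A ℂ, ψ (-(π t₀)) • Phi π 1 ψ 1 f) =
      ((Fintype.card A : ℂ) * f t₀) • (fun j => if t₀ = j then (1 : ℂ) else 0) := by
    funext t
    rw [Finset.sum_apply]
    have h4 : ∀ ψ : AddChar A ℂ, (ψ (-(π t₀)) • Phi π 1 ψ 1 f) t = ψ (π t - π t₀) * f t := by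
      intro ψ
      rw [Pi.smul_apply, Phi_apply, sub_eq_add_neg, AddChar.map_add_eq_mul, inv_one, one_mul, one_mul,
        smul_eq_mul]
      ring
    rw [Finset.sum_congr rfl (fun ψ _ => h4 ψ), ← Finset.sum_mul, AddChar.sum_apply_eq_ite,
      Pi.smul_apply, smul_eq_mul]
    by_cases h5 : t₀ = t
    · subst h5
      simp
    · have h6 : π t - π t₀ ≠ 0 := by
        intro h7
        exact h5 (hb.1 (sub_eq_zero.mp h7)).symm
      rw [if_neg h6, if_neg h5]
      simp
  have h4 : (fun j => if t₀ = j then (1 : ℂ) else 0) ∈ U := by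
    have h5 := U.smul_mem (((Fintype.card A : ℂ) * f t₀)⁻¹) h2
    rw [h3, smul_smul, inv_mul_cancel₀ (mul_ne_zero hA ht₀), one_smul] at h5
    exact h5
  have h5 : ∀ t : T, (fun j => if t = j then (1 : ℂ) else 0) ∈ U := by
    intro t
    have h6 := hU (elt hc hm 1 1 (t * t₀⁻¹)) _ h4
    have h7 : rho hc hm (elt hc hm 1 1 (t * t₀⁻¹)) (fun j => if t₀ = j then (1 : ℂ) else 0) =
        (fun j => if t = j then (1 : ℂ) else 0) := by
      funext j
      show Phi π 1 1 (t * t₀⁻¹) _ j = _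
      rw [Phi_apply]
      have h8 : (t₀ = (t * t₀⁻¹)⁻¹ * j) ↔ t = j := by
        rw [mul_inv_rev, inv_inv, mul_assoc, eq_comm]
        constructor
        · intro h9
          have h10 : t₀ * (t⁻¹ * j) = t₀ := h9
          have h11 : t⁻¹ * j = 1 := mul_left_cancel (h10.trans (mul_one _).symm)
          exact (inv_mul_eq_one.mp h11)
        · intro h9
          subst h9
          simp
      have h12 : ((1 : AddChar A ℂ) (π j)) = 1 := rfl
      simp only [h8, h12, one_mul]
    rw [h7] at h6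
    exact h6
  rw [eq_top_iff]
  intro g _
  rw [pi_eq_sum_univ g]
  exact Submodule.sum_mem _ (fun t _ => U.smul_mem _ (h5 t))

theorem rho_character_one (hb : Function.Bijective π) :
    (rho hc hm).character 1 = (Nat.card T : ℂ) := by
  classical
  haveI : Fintype T := Fintype.ofFinite T
  rw [Representation.character, map_one]
  have h1 : LinearMap.trace ℂ (T → ℂ) 1 = ((Module.finrank ℂ (T → ℂ) : ℕ) : ℂ) := LinearMap.trace_one ℂ (T → ℂ)
  rw [h1, Module.finrank_fintype_fun_eq_card, Nat.card_eq_fintype_card]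

theorem rho_faithful (hb : Function.Bijective π) [NeZero m] (h : Hgp hc hm)
    (he : (rho hc hm).character h = (rho hc hm).character 1) : h = 1 := by
  classical
  haveI := finite_Hgp hc hm hb
  haveI : Fintype T := Fintype.ofFinite T
  have h1 : (rho hc hm).character 1 = ((Module.finrank ℂ (T → ℂ) : ℕ) : ℂ) := by
    rw [rho_character_one hc hm hb, Module.finrank_fintype_fun_eq_card, Nat.card_eq_fintype_card]
  rw [h1] at he
  have h2 := (Cfsg.Agent.Lib.CharValues.character_eq_finrank_iff (rho hc hm) h).mp he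
  apply Subtype.ext
  apply Units.ext
  exact h2

include hc hm in
/-- The main construction. -/
theorem exists_central_type (hb : Function.Bijective π) (hm0 : 0 < m) :
    ∃ (H : Type u) (_ : Group H) (_ : Finite H) (χ : Cfsg.IrrCharacter H),
      (∀ h : H, (χ : H → ℂ) h = (χ : H → ℂ) 1 → h = 1) ∧
      (Cfsg.charDegree (χ : H → ℂ)) ^ 2 = (Subgroup.center H).index ∧
      (∃ f : T →* H ⧸ Subgroup.center H, Function.Injective f) ∧
      Nat.card H = m * (Nat.card T * Nat.card T) ∧ Nat.card (Subgroup.center H) = m := by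
  classical
  haveI : NeZero m := ⟨hm0.ne'⟩
  haveI := finite_Hgp hc hm hb
  refine ⟨Hgp hc hm, inferInstance, inferInstance,
    ⟨(rho hc hm).character, isIrrCharacter_of_rep _ (rho_irreducible hc hm hb)⟩, ?_, ?_, ?_, ?_, ?_⟩
  · intro h he
    exact rho_faithful hc hm hb h he
  · have h1 : Cfsg.charDegree (rho hc hm).character = Nat.card T := by
      unfold Cfsg.charDegree
      rw [rho_character_one hc hm hb]
      simp
    have h2 := (Subgroup.center (Hgp hc hm)).card_mul_index
    rw [card_center hc hm hb, card_Hgp hc hm hb] at h2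
    show Cfsg.charDegree (rho hc hm).character ^ 2 = _
    rw [h1, sq]
    exact (Nat.eq_of_mul_eq_mul_left hm0 h2).symm
  · let g : T →* Hgp hc hm :=
      { toFun := fun s => elt hc hm 1 1 s
        map_one' := by
          apply Subtype.ext
          apply Units.ext
          exact Phi_one hc
        map_mul' := by
          intro s s'
          rw [elt_mul]
          have h2 : (⟨charU (1 : AddChar A ℂ) (π s⁻¹), mem_rootsOfUnity_charU hm _ _⟩ : rootsOfUnity m ℂ) = 1 := by
            apply Subtype.ext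
            exact charU_one _
          rw [h2, act_one hc, mul_one, mul_one, mul_one] }
    refine ⟨(QuotientGroup.mk' _).comp g, ?_⟩
    rw [injective_iff_map_eq_one]
    intro s hs
    have h1 : g s ∈ Subgroup.center (Hgp hc hm) := (QuotientGroup.eq_one_iff _).mp hs
    exact (eq_of_mem_center hc hm hb _ _ _ h1).2
  · exact card_Hgp hc hm hb
  · exact card_center hc hm hb

end Main

end Cfsg.Agent.Lib.CentralTypeEmb
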