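import Mathlib
import Cfsg.Agent.Lib.CentralTypeEmb

/-!
# Solvable groups embed in iterated wreath products with bijective cocycles

Every finite solvable group `G` embeds in a group `T` with the same prime divisors having a bijective
`1`-cocycle into an abelian group of exponent dividing the radical of `|G|`.
-/

set_option autoImplicit false
set_option linter.style.haveILetI false
set_option linter.unusedVariables false
set_option linter.unusedSectionVars false

namespace Cfsg.Agent.Lib.CentralTypeEmb

universe u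

/-- The property of having a bijective cocycle into a module of exponent dividing `m`. -/
def HasBijCocycle (T : Type u) [Group T] (m : ℕ) : Prop :=
  ∃ (A : Type u) (_ : AddCommGroup A) (_ : DistribMulAction T A) (π : T → A),
    Function.Bijective π ∧ (∀ s t, π (s * t) = π s + s • π t) ∧ ∀ a : A, m • a = 0

/-- The radical as a product. -/
def rad (n : ℕ) : ℕ := ∏ p ∈ n.primeFactors, p

theorem rad_pos (n : ℕ) : 0 < rad n :=
  Finset.prod_pos fun p hp => (Nat.prime_of_mem_primeFactors hp).pos

theorem prime_dvd_rad_iff {q n : ℕ} (hn : n ≠ 0) (hq : q.Prime) : q ∣ rad n ↔ q ∣ n := by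
  constructor
  · intro h
    obtain ⟨p, hp, hqp⟩ := (Prime.dvd_finsetProd_iff hq.prime _).mp h
    exact hqp.trans (Nat.dvd_of_mem_primeFactors hp)
  · intro h
    exact Finset.dvd_prod_of_mem (fun p => p) (Nat.mem_primeFactors.mpr ⟨hq, h, hn⟩)

theorem rad_squarefree (n : ℕ) : Squarefree (rad n) := by
  refine Finset.squarefree_prod_of_pairwise_isCoprime (fun p hp q hq hpq => ?_)
    (fun p hp => (Nat.prime_of_mem_primeFactors hp).prime.squarefree)
  exact Nat.coprime_iff_isRelPrime.mp
    ((Nat.coprime_primes (Nat.prime_of_mem_primeFactors hp) (Nat.prime_of_mem_primeFactors hq)).mpr hpq)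

theorem rad_dvd_rad {a b : ℕ} (h : a ∣ b) (hb : b ≠ 0) : rad a ∣ rad b :=
  Finset.prod_dvd_prod_of_subset _ _ _ (Nat.primeFactors_mono h hb)

/-- A nontrivial solvable group maps onto a cyclic group of prime order. -/
theorem exists_hom_prime (G : Type u) [Group G] [Finite G] [Nontrivial G] (hs : Group.IsSolvable G) :
    ∃ (p : ℕ) (_ : Fact p.Prime) (κ : G →* Multiplicative (ZMod p)), Function.Surjective κ := by
  have h1 : commutator G ≠ ⊤ := (Group.IsSolvable.commutator_lt_top_of_nontrivial G).ne
  obtain ⟨M, hM, hle⟩ := (eq_top_or_exists_le_coatom (commutator G)).resolve_left h1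
  haveI hMn : M.Normal := by
    constructor
    intro x hx g
    have h2 : g * x * g⁻¹ * x⁻¹ ∈ M :=
      hle (Subgroup.commutator_mem_commutator (Subgroup.mem_top g) (Subgroup.mem_top x))
    have h3 := M.mul_mem h2 hx
    simpa using h3
  haveI : Nontrivial (G ⧸ M) := QuotientGroup.nontrivial_iff.mpr hM.1 
  obtain ⟨p, hp, hpd⟩ := Nat.exists_prime_and_dvd (Finite.one_lt_card (α := G ⧸ M)).ne'
  haveI : Fact p.Prime := ⟨hp⟩
  obtain ⟨x, hx⟩ := exists_prime_orderOf_dvd_card' p hpd
  have h4 : Subgroup.zpowers x = ⊤ := by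
    have h5 : (Subgroup.zpowers x).comap (QuotientGroup.mk' M) = ⊤ := by
      apply hM.2
      constructor
      · intro g hg
        rw [Subgroup.mem_comap, QuotientGroup.mk'_apply, (QuotientGroup.eq_one_iff g).mpr hg]
        exact Subgroup.one_mem _
      · intro h6
        obtain ⟨g, rfl⟩ := QuotientGroup.mk_surjective x
        have h7 : (g : G) ∈ M := h6 (show (g : G) ∈ (Subgroup.zpowers _).comap (QuotientGroup.mk' M) from
          Subgroup.mem_zpowers _)
        have h8 : ((g : G) : G ⧸ M) = 1 := (QuotientGroup.eq_one_iff g).mpr h7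
        rw [h8, orderOf_one] at hx
        exact hp.one_lt.ne hx
    rw [eq_top_iff]
    intro y _
    obtain ⟨g, rfl⟩ := QuotientGroup.mk_surjective y
    have h6 : g ∈ (Subgroup.zpowers x).comap (QuotientGroup.mk' M) := by
      rw [h5]
      exact Subgroup.mem_top g
    exact h6
  have h5 : Nat.card (G ⧸ M) = p := by
    rw [← hx, ← Nat.card_zpowers, h4, Subgroup.card_top]
  let e : (G ⧸ M) ≃* Multiplicative (ZMod p) := mulEquivOfPrimeCardEq h5 (by simp)
  refine ⟨p, inferInstance, e.toMonoidHom.comp (QuotientGroup.mk' M), ?_⟩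
  exact e.surjective.comp (QuotientGroup.mk'_surjective M)

section Wreath

variable {T₀ : Type u} [Group T₀] {A₀ : Type u} [AddCommGroup A₀] [DistribMulAction T₀ A₀] (p : ℕ)

/-- The action of the wreath product on the induced module. -/
def wrAct : DistribMulAction (T₀ ≀ᵣ Multiplicative (ZMod p)) ((Multiplicative (ZMod p) → A₀) × ZMod p) where
  smul t x := (fun q => t.left q • x.1 (t.right⁻¹ * q), x.2)
  one_smul x := by
    refine Prod.ext ?_ rfl
    funext q
    show (1 : T₀ ≀ᵣ Multiplicative (ZMod p)).left q • x.1 ((1 : T₀ ≀ᵣ Multiplicative (ZMod p)).right⁻¹ * q) = x.1 q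
    simp
  mul_smul s t x := by
    refine Prod.ext ?_ rfl
    funext q
    show (s * t).left q • x.1 ((s * t).right⁻¹ * q) = s.left q • (t.left (s.right⁻¹ * q) • x.1 (t.right⁻¹ * (s.right⁻¹ * q)))
    rw [RegularWreathProduct.mul_right, mul_inv_rev, mul_assoc, ← mul_smul]
    rfl
  smul_zero t := by
    refine Prod.ext ?_ rfl
    funext q
    show t.left q • (0 : A₀) = 0
    rw [smul_zero]
  smul_add t x y := by
    refine Prod.ext ?_ rfl
    funext q
    show t.left q • (x.1 (t.right⁻¹ * q) + y.1 (t.right⁻¹ * q)) =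
      t.left q • x.1 (t.right⁻¹ * q) + t.left q • y.1 (t.right⁻¹ * q)
    rw [smul_add]

/-- The induced cocycle. -/
def wrPi (π₀ : T₀ → A₀) (t : T₀ ≀ᵣ Multiplicative (ZMod p)) : (Multiplicative (ZMod p) → A₀) × ZMod p :=
  (fun q => π₀ (t.left q), Multiplicative.toAdd t.right)

theorem wrPi_bijective {π₀ : T₀ → A₀} (hb : Function.Bijective π₀) : Function.Bijective (wrPi p π₀) := by
  constructor
  · intro s t h
    have h1 := congrArg Prod.fst h
    have h2 := congrArg Prod.snd h
    apply RegularWreathProduct.ext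
    · funext q
      exact hb.1 (congrFun h1 q)
    · exact Multiplicative.toAdd.injective h2
  · rintro ⟨a, c⟩
    choose g hg using hb.2
    refine ⟨⟨fun q => g (a q), Multiplicative.ofAdd c⟩, ?_⟩
    refine Prod.ext ?_ rfl
    funext q
    exact hg (a q)

theorem wrPi_cocycle {π₀ : T₀ → A₀} (hc : ∀ s t, π₀ (s * t) = π₀ s + s • π₀ t)
    (s t : T₀ ≀ᵣ Multiplicative (ZMod p)) :
    wrPi p π₀ (s * t) = wrPi p π₀ s + (wrAct p).toSMul.smul s (wrPi p π₀ t) := by
  refine Prod.ext ?_ rfl
  funext q
  show π₀ (s.left q * t.left (s.right⁻¹ * q)) = π₀ (s.left q) + s.left q • π₀ (t.left (s.right⁻¹ * q))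
  rw [hc]

end Wreath

section Embed

variable {G : Type u} [Group G] {p : ℕ} (κ : G →* Multiplicative (ZMod p)) (hκ : Function.Surjective κ)

/-- The section. -/
noncomputable def sec : Multiplicative (ZMod p) → G := Function.surjInv hκ

theorem sec_spec (q : Multiplicative (ZMod p)) : κ (sec κ hκ q) = q := Function.surjInv_eq hκ q

/-- The induced cocycle into the kernel. -/
noncomputable def coc (g : G) (q : Multiplicative (ZMod p)) : κ.ker :=
  ⟨(sec κ hκ q)⁻¹ * g * sec κ hκ ((κ g)⁻¹ * q), by
    rw [MonoidHom.mem_ker, map_mul, map_mul, map_inv, sec_spec, sec_spec]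
    group⟩

theorem coc_mul (g h : G) (q : Multiplicative (ZMod p)) :
    coc κ hκ (g * h) q = coc κ hκ g q * coc κ hκ h ((κ g)⁻¹ * q) := by
  apply Subtype.ext
  show (sec κ hκ q)⁻¹ * (g * h) * sec κ hκ ((κ (g * h))⁻¹ * q) =
    (sec κ hκ q)⁻¹ * g * sec κ hκ ((κ g)⁻¹ * q) * ((sec κ hκ ((κ g)⁻¹ * q))⁻¹ * h * sec κ hκ ((κ h)⁻¹ * ((κ g)⁻¹ * q)))
  have h1 : (κ (g * h))⁻¹ * q = (κ h)⁻¹ * ((κ g)⁻¹ * q) := by
    rw [map_mul, mul_inv_rev, mul_assoc]
  rw [h1]
  group

/-- The embedding into the wreath product. -/
noncomputable def theta {T₀ : Type u} [Group T₀] (f₀ : κ.ker →* T₀) : G →* T₀ ≀ᵣ Multiplicative (ZMod p) where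
  toFun g := ⟨fun q => f₀ (coc κ hκ g q), κ g⟩
  map_one' := by
    apply RegularWreathProduct.ext
    · funext q
      have h1 : coc κ hκ 1 q = 1 := by
        apply Subtype.ext
        show (sec κ hκ q)⁻¹ * 1 * sec κ hκ ((κ 1)⁻¹ * q) = 1
        simp
      show f₀ (coc κ hκ 1 q) = 1
      rw [h1, map_one]
    · exact map_one κ
  map_mul' g h := by
    apply RegularWreathProduct.ext
    · funext q
      show f₀ (coc κ hκ (g * h) q) = f₀ (coc κ hκ g q) * f₀ (coc κ hκ h ((κ g)⁻¹ * q))
      rw [coc_mul, map_mul]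
    · exact map_mul κ g h

theorem theta_injective {T₀ : Type u} [Group T₀] (f₀ : κ.ker →* T₀) (hf : Function.Injective f₀) :
    Function.Injective (theta κ hκ f₀) := by
  rw [injective_iff_map_eq_one]
  intro g hg
  have h1 : κ g = 1 := congrArg RegularWreathProduct.right hg
  have h2 : f₀ (coc κ hκ g 1) = 1 := congrFun (congrArg RegularWreathProduct.left hg) 1
  have h3 : coc κ hκ g 1 = 1 := hf (h2.trans (map_one f₀).symm)
  have h4 : (sec κ hκ 1)⁻¹ * g * sec κ hκ ((κ g)⁻¹ * 1) = 1 := congrArg Subtype.val h3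
  rw [h1, inv_one, one_mul] at h4
  have h5 : (sec κ hκ 1)⁻¹ * g = (sec κ hκ 1)⁻¹ := mul_eq_one_iff_eq_inv.mp h4
  exact (mul_eq_left).mp h5

end Embed

/-- The main embedding theorem. -/
theorem exists_embedding (n : ℕ) : ∀ (G : Type u) [Group G] [Finite G], Group.IsSolvable G → Nat.card G = n →
    ∃ (T : Type u) (_ : Group T) (_ : Finite T) (f : G →* T), Function.Injective f ∧
      (∀ q : ℕ, q.Prime → (q ∣ Nat.card T ↔ q ∣ n)) ∧ HasBijCocycle T (rad n) := by
  induction n using Nat.strong_induction_on with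
  | _ n ih =>
    intro G _ _ hs hn
    by_cases hG : Nontrivial G
    · obtain ⟨p, hp, κ, hκ⟩ := exists_hom_prime G hs
      have hker : Nat.card κ.ker * p = n := by
        have h1 := κ.ker.card_mul_index
        have h2 : κ.ker.index = p := by
          rw [Subgroup.index_ker, MonoidHom.range_eq_top.mpr hκ, Subgroup.card_top]
          simp
        rw [h2, hn] at h1
        exact h1
      have hpp := hp.out
      have hn0 : n ≠ 0 := hn ▸ Nat.card_pos.ne'
      have hlt : Nat.card κ.ker < n := by
        rw [← hker]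
        exact lt_mul_of_one_lt_right Nat.card_pos hpp.one_lt
      haveI := hs
      have hsk : Group.IsSolvable κ.ker := inferInstance
      obtain ⟨T₀, _, _, f₀, hf₀, hpr, A₀, _, _, π₀, hb₀, hc₀, hm₀⟩ := ih _ hlt κ.ker hsk rfl
      haveI : NeZero p := ⟨hpp.ne_zero⟩
      refine ⟨T₀ ≀ᵣ Multiplicative (ZMod p), inferInstance, ?_, theta κ hκ f₀, theta_injective κ hκ f₀ hf₀, ?_, ?_⟩
      · exact Finite.of_equiv ((Multiplicative (ZMod p) → T₀) × Multiplicative (ZMod p))
          { toFun := fun x => ⟨x.1, x.2⟩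
            invFun := fun x => (x.left, x.right)
            left_inv := fun _ => rfl
            right_inv := fun _ => rfl }
      · intro q hq
        have hT : Nat.card (T₀ ≀ᵣ Multiplicative (ZMod p)) = Nat.card T₀ ^ p * p := by
          rw [RegularWreathProduct.card]
          simp
        rw [hT, hq.dvd_mul, ← hker, hq.dvd_mul, ← hpr q hq]
        constructor
        · rintro (h | h)
          · exact Or.inl (hq.dvd_of_dvd_pow h)
          · exact Or.inr h
        · rintro (h | h)
          · exact Or.inl (h.trans (dvd_pow_self _ hpp.ne_zero))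
          · exact Or.inr h
      · letI := wrAct (T₀ := T₀) (A₀ := A₀) p
        refine ⟨(Multiplicative (ZMod p) → A₀) × ZMod p, inferInstance, wrAct p, wrPi p π₀, wrPi_bijective p hb₀, ?_, ?_⟩
        · intro s t
          exact wrPi_cocycle p hc₀ s t
        · rintro ⟨a, c⟩
          have h1 : rad (Nat.card κ.ker) ∣ rad n := rad_dvd_rad (Dvd.intro _ hker) hn0
          have h2 : p ∣ rad n := (prime_dvd_rad_iff hn0 hpp).mpr (Dvd.intro_left _ hker)
          obtain ⟨k, hk⟩ := h1
          obtain ⟨l, hl⟩ := h2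
          refine Prod.ext ?_ ?_
          · funext q
            show rad n • a q = 0
            rw [hk, mul_nsmul, hm₀, smul_zero]
          · show rad n • c = 0
            rw [hl, mul_nsmul]
            have h3 : p • c = 0 := by
              rw [nsmul_eq_mul]
              simp
            rw [h3, smul_zero]
    · rw [not_nontrivial_iff_subsingleton] at hG
      have hn1 : n = 1 := by
        rw [← hn]
        exact Nat.card_unique
      subst hn1
      refine ⟨PUnit, inferInstance, inferInstance, 1, ?_, ?_, ?_⟩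
      · exact Function.injective_of_subsingleton _
      · intro q hq
        simp
      · refine ⟨PUnit, inferInstance,
          { smul := fun _ _ => PUnit.unit
            one_smul := fun _ => rfl
            mul_smul := fun _ _ _ => rfl
            smul_zero := fun _ => rfl
            smul_add := fun _ _ _ => rfl }, id, Function.bijective_id, ?_, ?_⟩
        · intro s t
          rfl
        · intro a
          rfl

end Cfsg.Agent.Lib.CentralTypeEmb
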