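import Mathlib
import Cfsg.Agent.Lib.BrauerSat
import Cfsg.Agent.Lib.BlockCentral
import Cfsg.Agent.Lib.BrauerWielandt

/-!
# Green's theorem on defect groups: `D = P ∩ x P x⁻¹`

An orbit-counting (Hecke algebra) argument: with `a` the sum of the idempotents of the conjugates
of `e` for a maximal Brauer pair `(D, e)`, and `U ≥ N_P(D)` a Sylow subgroup of `N_G(D)`,
`Σ_W d A(W) A(W⁻¹) / |U ∩ W-conjugate|` equals a unit, where `W` runs over `U`-`U` double cosets and
`A(g) = Σ_{u ∈ U} a(u g)`; terms with a too large intersection vanish modulo `M`.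
-/

set_option autoImplicit false
set_option linter.unusedSectionVars false
set_option linter.unusedVariables false
set_option linter.style.haveILetI false

namespace Cfsg.Agent.Lib.GreenDefect

open Cfsg Cfsg.Agent.Lib.CharBasic Cfsg.Agent.Lib.CharInd Cfsg.Agent.Lib.CharIntegrality
open Cfsg.Agent.Lib.BlockLocal Cfsg.Agent.Lib.BlockIdem Cfsg.Agent.Lib.BlockNormal
open Cfsg.Agent.Lib.BrauerMap Cfsg.Agent.Lib.BrauerPair Cfsg.Agent.Lib.BrauerSub
open Cfsg.Agent.Lib.BrauerConj Cfsg.Agent.Lib.BrauerThird Cfsg.Agent.Lib.BrauerMax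
open Cfsg.Agent.Lib.BrauerStab Cfsg.Agent.Lib.BlockDefect Cfsg.Agent.Lib.BrauerCen
open Cfsg.Agent.Lib.BrauerFull Cfsg.Agent.Lib.BrauerLift Cfsg.Agent.Lib.BrauerIdx
open Cfsg.Agent.Lib.BrauerSat Cfsg.Agent.Lib.BlockCentral Cfsg.Agent.Lib.BlockOrtho
open Cfsg.Agent.Lib.BlockQ Cfsg.Agent.Lib.CharKernel
open scoped ComplexConjugate Pointwise

universe u

section Orbit

variable {Y X : Type*} [Group Y] [Finite Y] [MulAction Y X] [Fintype X]

/-- Summation over orbits. -/
theorem sum_orbits [Fintype (MulAction.orbitRel.Quotient Y X)] (f : X → ℂ)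
    (hf : ∀ (r : Y) x, f (r • x) = f x) :
    ∑ x, f x = ∑ ω : MulAction.orbitRel.Quotient Y X,
      ((MulAction.stabilizer Y (Quotient.out ω : X)).index : ℂ) * f (Quotient.out ω) := by
  classical
  letI := MulAction.orbitRel Y X
  rw [← Finset.sum_fiberwise (s := Finset.univ) (g := fun x : X =>
    (Quotient.mk (MulAction.orbitRel Y X) x : MulAction.orbitRel.Quotient Y X))]
  refine Finset.sum_congr rfl fun ω _ => ?_
  have h1 : ∀ x ∈ Finset.univ.filter (fun x : X =>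
      (Quotient.mk (MulAction.orbitRel Y X) x : MulAction.orbitRel.Quotient Y X) = ω),
      f x = f (Quotient.out ω) := by
    intro x hx
    have h2 := (Finset.mem_filter.1 hx).2
    rw [← Quotient.out_eq ω] at h2
    obtain ⟨r, hr⟩ := Quotient.exact h2
    rw [← hr]
    simp only [hf]
  rw [Finset.sum_congr rfl h1, Finset.sum_const, nsmul_eq_mul]
  congr 1
  rw [MulAction.index_stabilizer]
  have h3 : (Finset.univ.filter (fun x : X =>
      (Quotient.mk (MulAction.orbitRel Y X) x : MulAction.orbitRel.Quotient Y X) = ω) : Set X) =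
      MulAction.orbit Y (Quotient.out ω) := by
    ext x
    simp only [Finset.coe_filter, Finset.mem_univ, true_and, Set.mem_ofPred_eq]
    constructor
    · intro h2
      rw [← Quotient.out_eq ω] at h2
      exact MulAction.orbitRel_apply.1 (Quotient.exact h2)
    · intro h2
      rw [← Quotient.out_eq ω]
      exact Quotient.sound (MulAction.orbitRel_apply.2 h2)
  rw [← h3, Set.ncard_coe_finset]

/-- The orbit divisibility principle. -/
theorem exists_sum_eq_mul {M : Ideal AlgInt} [M.IsPrime] (c : ℂ) (f s : X → ℂ)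
    (hf : ∀ (r : Y) x, f (r • x) = f x)
    (hs : ∀ x, c * f x = (Nat.card (MulAction.stabilizer Y x) : ℂ) * s x)
    (hR : ∀ x, MemLocalRing M (s x)) :
    ∃ t : ℂ, MemLocalRing M t ∧ c * ∑ x, f x = (Nat.card Y : ℂ) * t := by
  classical
  letI : Fintype (MulAction.orbitRel.Quotient Y X) := Fintype.ofFinite _
  refine ⟨∑ ω : MulAction.orbitRel.Quotient Y X, s (Quotient.out ω),
    memLocalRing_sum _ _ fun ω _ => hR _, ?_⟩
  rw [sum_orbits f hf, Finset.mul_sum, Finset.mul_sum]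
  refine Finset.sum_congr rfl fun ω _ => ?_
  have h1 := (MulAction.stabilizer Y (Quotient.out ω : X)).card_mul_index
  have h2 : (Nat.card (MulAction.stabilizer Y (Quotient.out ω : X)) : ℂ) *
      ((MulAction.stabilizer Y (Quotient.out ω : X)).index : ℂ) = (Nat.card Y : ℂ) := by
    exact_mod_cast h1
  rw [← h2]
  have h3 := hs (Quotient.out ω)
  calc c * (((MulAction.stabilizer Y (Quotient.out ω : X)).index : ℂ) * f (Quotient.out ω))
      = ((MulAction.stabilizer Y (Quotient.out ω : X)).index : ℂ) * (c * f (Quotient.out ω)) := by ring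
    _ = _ := by rw [h3]; ring

end Orbit

section Twisted

variable {G : Type u} [Group G]

/-- `R g = {r ∈ U | g r g⁻¹ ∈ U}`. -/
def rSub (U : Subgroup G) (g : G) : Subgroup G := U ⊓ U.map (MulAut.conj g⁻¹).toMonoidHom

theorem mem_rSub {U : Subgroup G} {g r : G} : r ∈ rSub U g ↔ r ∈ U ∧ g * r * g⁻¹ ∈ U := by
  unfold rSub
  rw [Subgroup.mem_inf]
  refine and_congr_right fun _ => ?_
  rw [Subgroup.mem_map]
  constructor
  · rintro ⟨s, hs, rfl⟩
    simpa [mul_assoc] using hs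
  · intro h
    refine ⟨_, h, ?_⟩
    simp [mul_assoc]

/-- The twisted action of `R g` on `U`: `r • u = r u (g r⁻¹ g⁻¹)`. -/
@[instance_reducible] def twAct (U : Subgroup G) (g : G) : MulAction (rSub U g) U where
  smul r u := ⟨(r : G) * u * (g * (r : G)⁻¹ * g⁻¹), U.mul_mem (U.mul_mem (mem_rSub.1 r.2).1 u.2)
    (by
      have := (mem_rSub.1 r.2).2
      have h2 := U.inv_mem this
      simpa [mul_assoc] using h2)⟩
  one_smul u := by
    apply Subtype.ext
    change ((1 : rSub U g) : G) * u * (g * ((1 : rSub U g) : G)⁻¹ * g⁻¹) = u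
    simp
  mul_smul r s u := by
    apply Subtype.ext
    change ((r * s : rSub U g) : G) * u * (g * ((r * s : rSub U g) : G)⁻¹ * g⁻¹) =
      (r : G) * ((s : G) * u * (g * (s : G)⁻¹ * g⁻¹)) * (g * (r : G)⁻¹ * g⁻¹)
    simp only [Subgroup.coe_mul, mul_inv_rev]
    group

end Twisted

section Core

variable {G : Type u} [Group G] [Fintype G] {p : ℕ} [hp : Fact p.Prime] {M : Ideal AlgInt}

noncomputable local instance fintypeSubG (K : Subgroup G) : Fintype K := Fintype.ofFinite K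

/-- `A g = Σ_{u ∈ U} a(u g)`. -/
noncomputable def aSum (U : Subgroup G) (a : G → ℂ) (g : G) : ℂ := ∑ u : U, a (u * g)

theorem aSum_left {U : Subgroup G} (a : G → ℂ) (u : U) (g : G) :
    aSum U a ((u : G) * g) = aSum U a g := by
  unfold aSum
  refine Fintype.sum_equiv (Equiv.mulRight u) _ _ fun v => ?_
  simp [mul_assoc]

theorem aSum_right {U : Subgroup G} {a : G → ℂ} (ha : ∀ u ∈ U, ∀ x, a (u * x * u⁻¹) = a x)
    (v : U) (g : G) : aSum U a (g * (v : G)) = aSum U a g := by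
  unfold aSum
  refine Fintype.sum_equiv (Equiv.mulLeft v) _ _ fun u => ?_
  have h := ha v v.2 (u * (g * v))
  simp only [Equiv.coe_mulLeft, Subgroup.coe_mul]
  rw [← h]
  congr 1
  group

/-- The divisibility of `A g`. -/
theorem exists_mul_aSum [M.IsPrime] {U : Subgroup G} {a : G → ℂ} {d : ℂ}
    (ha : ∀ u ∈ U, ∀ x, a (u * x * u⁻¹) = a x)
    (hL : ∀ (y : G) (Y : Subgroup G), Y ≤ U → Y ≤ Subgroup.centralizer ({y} : Set G) →
      ∃ s, MemLocalRing M s ∧ d * a y = (Nat.card Y : ℂ) * s) (g : G) :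
    ∃ t, MemLocalRing M t ∧ d * aSum U a g = (Nat.card (rSub U g) : ℂ) * t := by
  classical
  letI act := twAct U g
  have hsmul : ∀ (r : rSub U g) (x : U), ((r • x : U) : G) =
      (r : G) * x * (g * (r : G)⁻¹ * g⁻¹) := fun _ _ => rfl
  have key : ∀ x : U, ∃ s, MemLocalRing M s ∧ d * a ((x : G) * g) =
      (Nat.card (MulAction.stabilizer (rSub U g) x) : ℂ) * s := by
    intro x
    let Y : Subgroup G := (MulAction.stabilizer (rSub U g) x).map (rSub U g).subtype
    have hYU : Y ≤ U := by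
      rintro _ ⟨r, -, rfl⟩
      exact (mem_rSub.1 r.2).1
    have hYC : Y ≤ Subgroup.centralizer ({(x : G) * g} : Set G) := by
      rintro _ ⟨r, hr, rfl⟩
      rw [Subgroup.mem_centralizer_singleton_iff]
      have h1 : ((r • x : U) : G) = x := congrArg Subtype.val (MulAction.mem_stabilizer_iff.1 hr)
      rw [hsmul] at h1
      have h2 : (r : G) * x * g = x * g * (r : G) := by
        calc (r : G) * x * g = ((r : G) * x * (g * (r : G)⁻¹ * g⁻¹)) * g * (r : G) := by group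
          _ = _ := by rw [h1]
      simpa [mul_assoc] using h2
    obtain ⟨s, hs, h⟩ := hL _ Y hYU hYC
    refine ⟨s, hs, ?_⟩
    have hc : Nat.card Y = Nat.card (MulAction.stabilizer (rSub U g) x) :=
      Subgroup.card_map_of_injective Subtype.val_injective
    rw [h, hc]
  choose s hsR hs using key
  have := exists_sum_eq_mul (Y := rSub U g) (X := U) (M := M) d (fun x : U => a ((x : G) * g)) s
    (fun r x => by
      show a (((r • x : U) : G) * g) = a ((x : G) * g)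
      rw [hsmul, ← ha r (mem_rSub.1 r.2).1 ((x : G) * g)]
      congr 1
      group) hs hsR
  exact this

/-- `R g` and `R g⁻¹` are conjugate. -/
theorem card_rSub_inv (U : Subgroup G) (g : G) : Nat.card (rSub U g⁻¹) = Nat.card (rSub U g) := by
  have h : rSub U g⁻¹ = (rSub U g).map (MulAut.conj g).toMonoidHom := by
    ext r
    rw [Subgroup.mem_map, mem_rSub]
    constructor
    · rintro ⟨h1, h2⟩
      refine ⟨g⁻¹ * r * g, mem_rSub.2 ⟨by simpa using h2, by simpa [mul_assoc] using h1⟩, ?_⟩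
      simp [mul_assoc]
    · rintro ⟨s, hs, rfl⟩
      have := mem_rSub.1 hs
      refine ⟨by simpa using this.2, ?_⟩
      simpa [mul_assoc] using this.1
  rw [h]
  exact Subgroup.card_map_of_injective (MulAut.conj g).injective

/-- `R (u g) = u R(g) u⁻¹`-type statement in the form used below. -/
theorem card_rSub_inv_mul (U : Subgroup G) (u : U) (g : G) :
    Nat.card (rSub U ((u : G) * g⁻¹)⁻¹) = Nat.card (rSub U g) := by
  have h : rSub U ((u : G) * g⁻¹)⁻¹ = (rSub U g).map (MulAut.conj (u : G)).toMonoidHom := by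
    ext r
    rw [Subgroup.mem_map, mem_rSub]
    constructor
    · rintro ⟨h1, h2⟩
      refine ⟨(u : G)⁻¹ * r * u, mem_rSub.2 ⟨U.mul_mem (U.mul_mem (U.inv_mem u.2) h1) u.2, ?_⟩, ?_⟩
      · have e : ((u : G) * g⁻¹)⁻¹ * r * ((u : G) * g⁻¹)⁻¹⁻¹ = g * ((u : G)⁻¹ * r * u) * g⁻¹ := by group
        rwa [e] at h2
      · simp [mul_assoc]
    · rintro ⟨s, hs, rfl⟩
      have := mem_rSub.1 hs
      refine ⟨?_, ?_⟩
      · exact U.mul_mem (U.mul_mem u.2 this.1) (U.inv_mem u.2)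
      · have e : ((u : G) * g⁻¹)⁻¹ * ((MulAut.conj (u : G)).toMonoidHom s) * ((u : G) * g⁻¹)⁻¹⁻¹ =
            g * s * g⁻¹ := by
          simp [mul_assoc]
        rw [e]
        exact this.2
  rw [h]
  exact Subgroup.card_map_of_injective (MulAut.conj (u : G)).injective

/-- The double coset action of `U × U` on `G`. -/
@[instance_reducible] def dcAct (U : Subgroup G) : MulAction (U × U) G where
  smul x g := (x.1 : G) * g * (x.2 : G)⁻¹
  one_smul g := by
    change ((1 : U × U).1 : G) * g * ((1 : U × U).2 : G)⁻¹ = g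
    simp
  mul_smul x y g := by
    change ((x * y).1 : G) * g * ((x * y).2 : G)⁻¹ =
      (x.1 : G) * ((y.1 : G) * g * (y.2 : G)⁻¹) * (x.2 : G)⁻¹
    simp only [Prod.fst_mul, Prod.snd_mul, Subgroup.coe_mul, mul_inv_rev]
    group

theorem card_stabilizer_dc (U : Subgroup G) (g : G) :
    (letI := dcAct U; Nat.card (MulAction.stabilizer (U × U) g)) = Nat.card (rSub U g⁻¹) := by
  letI := dcAct U
  have hsmul : ∀ (x : U × U), x • g = (x.1 : G) * g * (x.2 : G)⁻¹ := fun _ => rfl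
  refine Nat.card_congr ?_
  refine Equiv.symm (Equiv.ofBijective (fun r : rSub U g⁻¹ =>
    (⟨(⟨r, (mem_rSub.1 r.2).1⟩, ⟨g⁻¹ * r * g, by simpa using (mem_rSub.1 r.2).2⟩), ?_⟩ :
      MulAction.stabilizer (U × U) g)) ⟨?_, ?_⟩)
  · rw [MulAction.mem_stabilizer_iff, hsmul]
    simp [mul_assoc]
  · intro r s h
    apply Subtype.ext
    have := congrArg (fun x : MulAction.stabilizer (U × U) g => ((x : U × U).1 : G)) h
    exact this
  · rintro ⟨⟨u, v⟩, hx⟩
    rw [MulAction.mem_stabilizer_iff, hsmul] at hx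
    dsimp only at hx
    have hv : (v : G) = g⁻¹ * u * g := by
      have h1 : (u : G) * g = g * v := by
        calc (u : G) * g = ((u : G) * g * (v : G)⁻¹) * v := by group
          _ = g * v := by rw [hx]
      rw [mul_assoc, h1]
      group
    refine ⟨⟨u, mem_rSub.2 ⟨u.2, ?_⟩⟩, ?_⟩
    · have : g⁻¹ * (u : G) * g⁻¹⁻¹ = v := by rw [hv]; group
      rw [this]
      exact v.2
    · apply Subtype.ext
      apply Prod.ext
      · rfl
      · apply Subtype.ext
        exact hv.symm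

/-- The sum over all elements. -/
theorem sum_aSum_mul {U : Subgroup G} {a : G → ℂ}
    (ha : ∀ u ∈ U, ∀ x, a (u * x * u⁻¹) = a x) (hconv : conv a a = a)
    (hsing : ∀ t ∈ U, t ≠ 1 → a t = 0) :
    ∑ g : G, aSum U a g * aSum U a g⁻¹ = (Nat.card U : ℂ) * a 1 := by
  classical
  have h1 : ∀ (u v : U), ∑ g : G, a ((u : G) * g) * a ((v : G) * g⁻¹) = a ((u : G) * v) := by
    intro u v
    conv_rhs => rw [← hconv]
    unfold conv
    refine Fintype.sum_equiv (Equiv.mulLeft (u : G)) _ _ fun g => ?_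
    simp only [Equiv.coe_mulLeft]
    congr 1
    have := ha v v.2 (g⁻¹ * v)
    rw [← ha (v : G)⁻¹ (U.inv_mem v.2) ((v : G) * g⁻¹)]
    congr 1
    simp [mul_assoc]
  have h2 : ∑ g : G, aSum U a g * aSum U a g⁻¹ = ∑ u : U, ∑ v : U, a ((u : G) * v) := by
    simp only [aSum, Finset.sum_mul_sum]
    rw [Finset.sum_comm]
    refine Finset.sum_congr rfl fun u _ => ?_
    rw [Finset.sum_comm]
    exact Finset.sum_congr rfl fun v _ => h1 u v
  rw [h2]
  have h3 : ∀ u : U, ∑ v : U, a ((u : G) * v) = a 1 := by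
    intro u
    have h4 : ∑ v : U, a ((u : G) * v) = ∑ t : U, a (t : G) :=
      Fintype.sum_equiv (Equiv.mulLeft u) _ _ fun v => by simp
    rw [h4, Finset.sum_eq_single (1 : U)]
    · simp
    · intro t _ ht
      exact hsing t t.2 (fun h => ht (Subtype.ext h))
    · simp
  simp only [h3, Finset.sum_const, nsmul_eq_mul, Finset.card_univ, Nat.card_eq_fintype_card]

/-- **The Hecke core.** -/
theorem hecke_core (hM : IsPModular p M) {U D : Subgroup G} {a : G → ℂ} (hU : IsPGroup p U)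
    (hDU : D ≤ U) (hUN : U ≤ Subgroup.normalizer (D : Set G))
    (ha : ∀ u ∈ U, ∀ x, a (u * x * u⁻¹) = a x) (hconv : conv a a = a)
    (hsing : ∀ t ∈ U, t ≠ 1 → a t = 0) (haR : ∀ x, MemLocalRing M (a x))
    (hN : ∀ x, a x ≠ 0 → x ∈ Subgroup.normalizer (D : Set G))
    (hL : ∀ (y : G) (Y : Subgroup G), Y ≤ U → Y ≤ Subgroup.centralizer ({y} : Set G) →
      ∃ s, MemLocalRing M s ∧ (Nat.card D : ℂ) * a y = (Nat.card Y : ℂ) * s)
    (hc : ¬ MemLocalIdeal M ((Nat.card D : ℂ) * a 1 / (Nat.card U : ℂ))) :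
    ∃ x, ¬ MemLocalIdeal M (a x) ∧ U ⊓ U.map (MulAut.conj x).toMonoidHom = D := by
  classical
  haveI := isPrime_of_isPModular hM
  letI act := dcAct U
  letI : Fintype (MulAction.orbitRel.Quotient (U × U) G) := Fintype.ofFinite _
  have hsmul : ∀ (x : U × U) (g : G), x • g = (x.1 : G) * g * (x.2 : G)⁻¹ := fun _ _ => rfl
  have hU0 : (Nat.card U : ℂ) ≠ 0 := by exact_mod_cast Nat.card_pos.ne'
  have hD0 : (Nat.card D : ℂ) ≠ 0 := by exact_mod_cast Nat.card_pos.ne'
  have hUc : Nat.card (U × U) = Nat.card U * Nat.card U := Nat.card_prod _ _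
  set f : G → ℂ := fun g => aSum U a g * aSum U a g⁻¹ with hf
  have hfinv : ∀ (x : U × U) (g : G), f (x • g) = f g := by
    intro x g
    simp only [hf, hsmul]
    have e1 : aSum U a ((x.1 : G) * g * (x.2 : G)⁻¹) = aSum U a g := by
      have := aSum_right ha x.2⁻¹ ((x.1 : G) * g)
      simp only [Subgroup.coe_inv] at this
      rw [this, aSum_left]
    have e2 : aSum U a ((x.1 : G) * g * (x.2 : G)⁻¹)⁻¹ = aSum U a g⁻¹ := by
      have e3 : ((x.1 : G) * g * (x.2 : G)⁻¹)⁻¹ = (x.2 : G) * (g⁻¹ * ((x.1⁻¹ : U) : G)) := by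
        simp [mul_assoc]
      rw [e3, aSum_left, aSum_right ha]
    rw [e1, e2]
  have hsum := sum_aSum_mul ha hconv hsing
  have hsum2 := sum_orbits (Y := U × U) f hfinv
  -- the formula over double cosets
  have hform : (Nat.card D : ℂ) * a 1 / (Nat.card U : ℂ) =
      ∑ ω : MulAction.orbitRel.Quotient (U × U) G,
        (Nat.card D : ℂ) * f (Quotient.out ω) / (Nat.card (rSub U (Quotient.out ω)) : ℂ) := by
    have h1 : ∀ ω : MulAction.orbitRel.Quotient (U × U) G,
        ((MulAction.stabilizer (U × U) (Quotient.out ω : G)).index : ℂ) =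
          (Nat.card U : ℂ) * (Nat.card U : ℂ) / (Nat.card (rSub U (Quotient.out ω)) : ℂ) := by
      intro ω
      have h2 := (MulAction.stabilizer (U × U) (Quotient.out ω : G)).card_mul_index
      have h3 : Nat.card (MulAction.stabilizer (U × U) (Quotient.out ω : G)) =
          Nat.card (rSub U (Quotient.out ω)) := by
        rw [← card_rSub_inv]
        exact card_stabilizer_dc U _
      rw [h3, hUc] at h2
      have h4 : (Nat.card (rSub U (Quotient.out ω)) : ℂ) ≠ 0 := by exact_mod_cast Nat.card_pos.ne'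
      rw [eq_div_iff h4, mul_comm]
      exact_mod_cast h2
    have h5 : (Nat.card U : ℂ) * a 1 = ∑ ω : MulAction.orbitRel.Quotient (U × U) G,
        ((MulAction.stabilizer (U × U) (Quotient.out ω : G)).index : ℂ) * f (Quotient.out ω) := by
      rw [← hsum, ← hsum2]
    calc (Nat.card D : ℂ) * a 1 / (Nat.card U : ℂ)
        = ((Nat.card D : ℂ) / ((Nat.card U : ℂ) * (Nat.card U : ℂ))) * ((Nat.card U : ℂ) * a 1) := by
          field_simp
      _ = _ := by
          rw [h5, Finset.mul_sum]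
          refine Finset.sum_congr rfl fun ω _ => ?_
          rw [h1]
          have h4 : (Nat.card (rSub U (Quotient.out ω)) : ℂ) ≠ 0 := by exact_mod_cast Nat.card_pos.ne'
          field_simp
  -- a term outside the ideal
  have hex : ∃ ω : MulAction.orbitRel.Quotient (U × U) G, ¬ MemLocalIdeal M
      ((Nat.card D : ℂ) * f (Quotient.out ω) / (Nat.card (rSub U (Quotient.out ω)) : ℂ)) := by
    by_contra hcon
    push Not at hcon
    apply hc
    rw [hform]
    exact memLocalIdeal_sum _ _ fun ω _ => hcon ω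
  obtain ⟨ω, hω⟩ := hex
  set g := (Quotient.out ω : G) with hg
  obtain ⟨t, htR, ht⟩ := exists_mul_aSum ha hL g
  obtain ⟨t', ht'R, ht'⟩ := exists_mul_aSum ha hL g⁻¹
  rw [card_rSub_inv] at ht'
  -- elements
  have hne : aSum U a g⁻¹ ≠ 0 := by
    intro h0
    apply hω
    simp only [hf, h0, mul_zero, zero_div]
    exact memLocalIdeal_zero
  have hexu : ∃ u : U, a ((u : G) * g⁻¹) ≠ 0 := by
    by_contra hcon
    push Not at hcon
    exact hne (Finset.sum_eq_zero fun u _ => hcon u)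
  obtain ⟨u₀, hu₀⟩ := hexu
  have hgN : g⁻¹ ∈ Subgroup.normalizer (D : Set G) := by
    have h1 := hN _ hu₀
    have e : g⁻¹ = (u₀ : G)⁻¹ * ((u₀ : G) * g⁻¹) := by group
    rw [e]
    exact Subgroup.mul_mem _ (Subgroup.inv_mem _ (hUN u₀.2)) h1
  have hgN' : g ∈ Subgroup.normalizer (D : Set G) := by
    simpa using Subgroup.inv_mem _ hgN
  have hDR : D ≤ rSub U g := by
    intro r hr
    exact mem_rSub.2 ⟨hDU hr, hDU ((Subgroup.mem_normalizer_iff.1 hgN' r).1 hr)⟩
  have hdvd : Nat.card D ∣ Nat.card (rSub U g) := Subgroup.card_dvd_of_le hDR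
  have hRp : IsPGroup p (rSub U g) := hU.to_le inf_le_left
  obtain ⟨m, hm⟩ := IsPGroup.iff_card.1 hRp
  rw [hm] at hdvd
  obtain ⟨n, -, hn⟩ := (Nat.dvd_prime_pow hp.out).1 hdvd
  have hnm : n ≤ m := by
    have h1 : Nat.card D ≤ p ^ m := Nat.le_of_dvd (pow_pos hp.out.pos _) hdvd
    rw [hn] at h1
    exact (Nat.pow_le_pow_iff_right hp.out.one_lt).1 h1
  obtain ⟨k, rfl⟩ := Nat.exists_eq_add_of_le hnm
  have hρ : (Nat.card (rSub U g) : ℂ) = (Nat.card D : ℂ) * (p : ℂ) ^ k := by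
    rw [hm, hn, pow_add]
    push_cast
    ring
  have hterm : (Nat.card D : ℂ) * f g / (Nat.card (rSub U g) : ℂ) = (p : ℂ) ^ k * (t * t') := by
    have hρ0 : (Nat.card (rSub U g) : ℂ) ≠ 0 := by exact_mod_cast Nat.card_pos.ne'
    rw [div_eq_iff hρ0]
    have h1 : (Nat.card D : ℂ) * f g * (Nat.card D : ℂ) =
        ((Nat.card D : ℂ) * aSum U a g) * ((Nat.card D : ℂ) * aSum U a g⁻¹) := by
      simp only [hf]; ring
    have h2 : (Nat.card D : ℂ) * f g = ((Nat.card D : ℂ) * aSum U a g) *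
        ((Nat.card D : ℂ) * aSum U a g⁻¹) / (Nat.card D : ℂ) := by
      rw [eq_div_iff hD0, h1]
    rw [h2, ht, ht', hρ]
    field_simp
  rw [hterm] at hω
  have hk : k = 0 := by
    by_contra hk
    apply hω
    obtain ⟨k', rfl⟩ := Nat.exists_eq_succ_of_ne_zero hk
    have hp0 : MemLocalIdeal M (p : ℂ) := by
      have := hM.2.2
      exact ⟨(p : AlgInt), 1, this, one_not_mem, by simp⟩
    have e : (p : ℂ) ^ (k' + 1) * (t * t') = (p : ℂ) * ((p : ℂ) ^ k' * (t * t')) := by ring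
    rw [Nat.succ_eq_add_one, e]
    exact memLocalIdeal_mul_right hp0
      (memLocalRing_mul (memLocalRing_pow (memLocalRing_natCast p) k') (memLocalRing_mul htR ht'R))
  subst hk
  have hρ1 : Nat.card (rSub U g) = Nat.card D := by
    rw [hm, hn, add_zero]
  have ht'eq : aSum U a g⁻¹ = t' := by
    rw [hρ1] at ht'
    exact mul_left_cancel₀ hD0 ht'
  have hAn : ¬ MemLocalIdeal M (aSum U a g⁻¹) := by
    rw [ht'eq]
    intro h
    apply hω
    rw [pow_zero, one_mul]
    exact memLocalIdeal_mul_left htR h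
  have hex2 : ∃ u : U, ¬ MemLocalIdeal M (a ((u : G) * g⁻¹)) := by
    by_contra hcon
    push Not at hcon
    exact hAn (memLocalIdeal_sum _ _ fun u _ => hcon u)
  obtain ⟨u, hu⟩ := hex2
  refine ⟨(u : G) * g⁻¹, hu, ?_⟩
  have hx0 : a ((u : G) * g⁻¹) ≠ 0 := by
    intro h0
    rw [h0] at hu
    exact hu memLocalIdeal_zero
  have hxN := hN _ hx0
  set x := (u : G) * g⁻¹ with hx
  have hle : D ≤ U ⊓ U.map (MulAut.conj x).toMonoidHom := by
    intro r hr
    refine ⟨hDU hr, ?_⟩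
    refine ⟨x⁻¹ * r * x, ?_, by simp [mul_assoc]⟩
    have := (Subgroup.mem_normalizer_iff.1 (Subgroup.inv_mem _ hxN) r).1 hr
    simp only [inv_inv] at this
    exact hDU this
  have hcard : Nat.card (U ⊓ U.map (MulAut.conj x).toMonoidHom : Subgroup G) = Nat.card D := by
    have h1 : (U ⊓ U.map (MulAut.conj x).toMonoidHom : Subgroup G) = rSub U x⁻¹ := by
      unfold rSub
      rw [inv_inv]
    rw [h1, hx, card_rSub_inv_mul, hρ1]
  exact (Subgroup.eq_of_le_of_card_ge hle hcard.le).symm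

end Core

section Central

variable {H : Type u} [Group H] [Fintype H] {p : ℕ} [hp : Fact p.Prime] {M : Ideal AlgInt}

/-- The coefficients of a block with central defect group, with a unit constant. -/
theorem exists_unit_of_central (hM : IsPModular p M) {B : Set (IrrCharacter H)} (hB : IsPBlock M B)
    {P : Subgroup H} (hD : IsDefectGroup p M B P) (hPZ : P ≤ Subgroup.center H) :
    ∃ χ₀ ∈ B, (∀ x : H, blockCoeff B x =
      ((χ₀ : H → ℂ) 1 * (Nat.card P : ℂ) / (Nat.card H : ℂ)) * regInv p (χ₀ : H → ℂ) x) ∧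
      MemLocalRing M ((χ₀ : H → ℂ) 1 * (Nat.card P : ℂ) / (Nat.card H : ℂ)) ∧
      ¬ MemLocalIdeal M ((χ₀ : H → ℂ) 1 * (Nat.card P : ℂ) / (Nat.card H : ℂ)) := by
  classical
  haveI := isPrime_of_isPModular hM
  have hpp : p.Prime := hp.out
  obtain ⟨χ₀, hχ₀B, hχ₀⟩ := exists_char_of_central hM hB hD hPZ
  refine ⟨χ₀, hχ₀B, hχ₀, ?_⟩
  obtain ⟨χ₁, hχ₁B, hχ₁⟩ := eq_on_regular_of_central hM hB hD hPZ
  have hone : ¬ p ∣ orderOf (1 : H) := by
    rw [orderOf_one]
    exact hpp.one_lt.ne' ∘ Nat.dvd_one.1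
  have hdeg : ∀ τ ∈ B, charDegree (τ : H → ℂ) = charDegree (χ₀ : H → ℂ) := by
    intro τ hτ
    unfold charDegree
    rw [hχ₁ τ hτ 1 hone, hχ₁ χ₀ hχ₀B 1 hone]
  have hcard := card_isDefectGroup hM hB hD
  set δ := charDegree (χ₀ : H → ℂ) with hδ
  have hδ0 : δ ≠ 0 := charDegree_ne_zero χ₀.2
  have hδH : δ ∣ Nat.card H := charDegree_dvd_card χ₀.2
  have hH0 : Nat.card H ≠ 0 := Nat.card_pos.ne'
  have hinf : sInf ((fun χ : IrrCharacter H => (charDegree (χ : H → ℂ)).factorization p) '' B) =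
      δ.factorization p := by
    have : ((fun χ : IrrCharacter H => (charDegree (χ : H → ℂ)).factorization p) '' B) =
        {δ.factorization p} := by
      ext n
      constructor
      · rintro ⟨τ, hτ, rfl⟩
        simp only [hdeg τ hτ, Set.mem_singleton_iff]
      · intro hn
        exact ⟨χ₀, hχ₀B, hn.symm⟩
    rw [this]
    simp
  have hle : δ.factorization p ≤ (Nat.card H).factorization p :=
    (Nat.factorization_le_iff_dvd hδ0 hH0).2 hδH p
  have hdef : blockDefect p B = (Nat.card H).factorization p - δ.factorization p := by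
    unfold blockDefect
    rw [hinf]
  rw [hdef] at hcard
  have hone' := one_eq_charDegree (IsIrrCharacter.isCharacter χ₀.2)
  rw [← hδ] at hone'
  have hf1 := Nat.ordProj_mul_ordCompl_eq_self δ p
  have hf2 := Nat.ordProj_mul_ordCompl_eq_self (Nat.card H) p
  have hm : ¬ p ∣ δ / p ^ δ.factorization p := Nat.not_dvd_ordCompl hpp hδ0
  have hn : ¬ p ∣ Nat.card H / p ^ (Nat.card H).factorization p := Nat.not_dvd_ordCompl hpp hH0
  set m := δ / p ^ δ.factorization p with hmdef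
  set n := Nat.card H / p ^ (Nat.card H).factorization p with hndef
  have hb : (χ₀ : H → ℂ) 1 * (Nat.card P : ℂ) / (Nat.card H : ℂ) = (m : ℂ) * ((n : ℂ))⁻¹ := by
    rw [hone', hcard]
    have h1 : (δ : ℂ) = (p : ℂ) ^ δ.factorization p * (m : ℂ) := by
      exact_mod_cast hf1.symm
    have h2 : (Nat.card H : ℂ) = (p : ℂ) ^ (Nat.card H).factorization p * (n : ℂ) := by
      exact_mod_cast hf2.symm
    have h3 : (p : ℂ) ^ (Nat.card H).factorization p =
        (p : ℂ) ^ δ.factorization p * (p : ℂ) ^ ((Nat.card H).factorization p - δ.factorization p) := by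
      rw [← pow_add, Nat.add_sub_cancel' hle]
    have hp0 : (p : ℂ) ≠ 0 := by exact_mod_cast hpp.ne_zero
    have hn0 : (n : ℂ) ≠ 0 := by
      intro h
      have : n = 0 := by exact_mod_cast h
      rw [this] at hn
      exact hn (dvd_zero _)
    rw [h2, h3, h1]
    push_cast
    field_simp
  rw [hb]
  constructor
  · exact memLocalRing_mul (memLocalRing_natCast m) (memLocalRing_inv_natCast hM hn)
  · intro h
    apply not_memLocalIdeal_natCast hM hm
    have h1 := memLocalIdeal_mul_left (memLocalRing_natCast n) h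
    have hn0 : (n : ℂ) ≠ 0 := by
      intro h
      have : n = 0 := by exact_mod_cast h
      rw [this] at hn
      exact hn (dvd_zero _)
    have e : (n : ℂ) * ((m : ℂ) * ((n : ℂ))⁻¹) = (m : ℂ) := by
      field_simp
    rwa [e] at h1

end Central

section Main

variable {G : Type u} [Group G] [Fintype G] {p : ℕ} [hp : Fact p.Prime] {M : Ideal AlgInt}

noncomputable local instance fintypeSubM (K : Subgroup G) : Fintype K := Fintype.ofFinite K

local notation "𝐂[" R "]" => Subgroup.centralizer ((R : Subgroup G) : Set G)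
local notation "𝐍[" R "]" => Subgroup.normalizer ((R : Subgroup G) : Set G)
local notation Q "^^" x => Subgroup.map (MulEquiv.toMonoidHom (MulAut.conj (x : G))) (Q : Subgroup G)

variable {D : Subgroup G} {e : Set (IrrCharacter (Subgroup.centralizer (D : Set G)))}

theorem normalizer_le_normalizer_cen (D : Subgroup G) : 𝐍[D] ≤ Subgroup.normalizer ((𝐂[D] : Subgroup G) : Set G) :=
  normalizer_le_normalizer_centralizer D

/-- The subgroup `D ⊓ C_G(D)` is central in `C_G(D)`. -/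
theorem inf_subgroupOf_le_center (D : Subgroup G) :
    (D ⊓ 𝐂[D]).subgroupOf 𝐂[D] ≤ Subgroup.center 𝐂[D] := by
  intro z hz
  rw [Subgroup.mem_subgroupOf] at hz
  rw [Subgroup.mem_center_iff]
  intro c
  apply Subtype.ext
  exact (Subgroup.mem_centralizer_iff.1 c.2 z hz.1).symm

/-- The natural number identity. -/
theorem exists_card_factor {y : G} {w : 𝐂[D]} (hwy : (w : G) = y⁻¹) {Y : Subgroup G}
    (hYC : Y ≤ prodSub D 𝐂[D] ((le_normalizer_self D).trans (normalizer_le_normalizer_cen D)))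
    (hYy : Y ≤ Subgroup.centralizer ({y} : Set G)) (hDy : D ≤ Subgroup.centralizer ({y} : Set G)) :
    ∃ k : ℕ, Nat.card D * Nat.card (Subgroup.centralizer ({w} : Set 𝐂[D])) =
      Nat.card Y * Nat.card ((D ⊓ 𝐂[D]).subgroupOf 𝐂[D]) * k := by
  classical
  set hDC := (le_normalizer_self D).trans (normalizer_le_normalizer_cen D) with hhDC
  set Y₂ : Subgroup G := Y ⊔ D with hY₂
  set Y₃ : Subgroup G := Y₂ ⊓ 𝐂[D] with hY₃
  have hY₂C : Y₂ ≤ prodSub D 𝐂[D] hDC := sup_le hYC (left_le_prodSub _ _ _)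
  have hset : (Y₂ : Set G) = (D : Set G) * (Y₃ : Set G) := by
    ext r
    constructor
    · intro hr
      obtain ⟨d, hd, hc⟩ := hY₂C hr
      refine Set.mem_mul.2 ⟨d, hd, d⁻¹ * r, ⟨Y₂.mul_mem (Y₂.inv_mem ((le_sup_right : D ≤ Y₂) hd)) hr, hc⟩, by group⟩
    · intro hr
      obtain ⟨d, hd, c, hc, rfl⟩ := Set.mem_mul.1 hr
      exact Y₂.mul_mem ((le_sup_right : D ≤ Y₂) hd) hc.1
  have h1 := Cfsg.Agent.Lib.BrauerWielandt.card_of_set_mul hset
  have hinf : D ⊓ Y₃ = D ⊓ 𝐂[D] := by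
    rw [hY₃, ← inf_assoc, inf_eq_left.2 (le_sup_right : D ≤ Y₂)]
  rw [hinf] at h1
  have hZcard : Nat.card ((D ⊓ 𝐂[D]).subgroupOf 𝐂[D]) = Nat.card (D ⊓ 𝐂[D] : Subgroup G) :=
    Nat.card_congr (Subgroup.subgroupOfEquivOfLe inf_le_right).toEquiv
  have hY₃C : Y₃ ≤ 𝐂[D] := inf_le_right
  have hY₃card : Nat.card (Y₃.subgroupOf 𝐂[D]) = Nat.card Y₃ :=
    Nat.card_congr (Subgroup.subgroupOfEquivOfLe hY₃C).toEquiv
  have hle3 : Y₃.subgroupOf 𝐂[D] ≤ Subgroup.centralizer ({w} : Set 𝐂[D]) := by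
    intro r hr
    rw [Subgroup.mem_subgroupOf] at hr
    rw [Subgroup.mem_centralizer_singleton_iff]
    apply Subtype.ext
    have h2 : (r : G) ∈ Subgroup.centralizer ({y} : Set G) :=
      (sup_le hYy hDy : Y₂ ≤ _) hr.1
    rw [Subgroup.mem_centralizer_singleton_iff] at h2
    change (r : G) * w = w * r
    rw [hwy]
    calc (r : G) * y⁻¹ = y⁻¹ * (y * r) * y⁻¹ := by group
      _ = y⁻¹ * (r * y) * y⁻¹ := by rw [h2]
      _ = y⁻¹ * r := by group
  obtain ⟨k₁, hk₁⟩ := Subgroup.card_dvd_of_le hle3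
  obtain ⟨k₂, hk₂⟩ := Subgroup.card_dvd_of_le (le_sup_left : Y ≤ Y₂)
  refine ⟨k₁ * k₂, ?_⟩
  rw [hk₁, hY₃card, hZcard]
  calc Nat.card D * (Nat.card Y₃ * k₁) = (Nat.card D * Nat.card Y₃) * k₁ := by ring
    _ = (Nat.card Y₂ * Nat.card (D ⊓ 𝐂[D] : Subgroup G)) * k₁ := by rw [h1]
    _ = _ := by rw [hk₂]; ring

/-- The divisibility for the coefficients of a block with central defect group `D ∩ C_G(D)`. -/
theorem exists_mul_sbc (hM : IsPModular p M) (he : IsPBlock M e)
    (hZ : IsDefectGroup p M e ((D ⊓ 𝐂[D]).subgroupOf 𝐂[D])) {y : G} (hyC : y ∈ 𝐂[D]) {Y : Subgroup G}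
    (hYC : Y ≤ prodSub D 𝐂[D] ((le_normalizer_self D).trans (normalizer_le_normalizer_cen D)))
    (hYy : Y ≤ Subgroup.centralizer ({y} : Set G)) :
    ∃ s, MemLocalRing M s ∧
      (Nat.card D : ℂ) * subgroupBlockCoeff 𝐂[D] e y = (Nat.card Y : ℂ) * s := by
  classical
  haveI := isPrime_of_isPModular hM
  have hDy : D ≤ Subgroup.centralizer ({y} : Set G) := by
    intro d hd
    rw [Subgroup.mem_centralizer_singleton_iff]
    exact ((Subgroup.mem_centralizer_iff.1 hyC) d hd)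
  obtain ⟨χ₀, hχ₀, hcoef, hbR, -⟩ := exists_unit_of_central hM he hZ (inf_subgroupOf_le_center D)
  set b := (χ₀ : 𝐂[D] → ℂ) 1 * (Nat.card ((D ⊓ 𝐂[D]).subgroupOf 𝐂[D]) : ℂ) / (Nat.card 𝐂[D] : ℂ) with hb
  rw [subgroupBlockCoeff_eq_ext0, ext0_of_mem _ _ hyC, hcoef]
  by_cases hsing : p ∣ orderOf y
  · refine ⟨0, memLocalRing_zero, ?_⟩
    have h1 : regInv p (χ₀ : 𝐂[D] → ℂ) ⟨y, hyC⟩ = 0 := by
      unfold regInv
      apply pRegularPart_of_sing
      rw [orderOf_inv, Subgroup.orderOf_mk]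
      exact hsing
    rw [h1]
    simp
  set w : 𝐂[D] := (⟨y, hyC⟩ : 𝐂[D])⁻¹ with hw
  have hwy : (w : G) = y⁻¹ := rfl
  have h1 : regInv p (χ₀ : 𝐂[D] → ℂ) ⟨y, hyC⟩ = (χ₀ : 𝐂[D] → ℂ) w := by
    unfold regInv
    apply pRegularPart_of_reg
    rw [orderOf_inv, Subgroup.orderOf_mk]
    exact hsing
  rw [h1]
  obtain ⟨k, hk⟩ := exists_card_factor hwy hYC hYy hDy
  set ω := centralChar (χ₀ : 𝐂[D] → ℂ) w with hω
  have hωR : MemLocalRing M ω := memLocalRing_of_isIntegral (isIntegral_centralChar χ₀ w)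
  refine ⟨b * b * ω * k, memLocalRing_mul (memLocalRing_mul (memLocalRing_mul hbR hbR) hωR)
    (memLocalRing_natCast k), ?_⟩
  have hC0 : (Nat.card 𝐂[D] : ℂ) ≠ 0 := by exact_mod_cast Nat.card_pos.ne'
  have hZ0 : (Nat.card ((D ⊓ 𝐂[D]).subgroupOf 𝐂[D]) : ℂ) ≠ 0 := by exact_mod_cast Nat.card_pos.ne'
  have hχ0 : (χ₀ : 𝐂[D] → ℂ) 1 ≠ 0 := irr_one_ne_zero' χ₀.2
  have hidx : ((Subgroup.centralizer ({w} : Set 𝐂[D])).index : ℂ) *
      (Nat.card (Subgroup.centralizer ({w} : Set 𝐂[D])) : ℂ) = (Nat.card 𝐂[D] : ℂ) := by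
    have := (Subgroup.centralizer ({w} : Set 𝐂[D])).index_mul_card
    exact_mod_cast this
  have hcen0 : (Nat.card (Subgroup.centralizer ({w} : Set 𝐂[D])) : ℂ) ≠ 0 := by
    exact_mod_cast Nat.card_pos.ne'
  have hω2 : (χ₀ : 𝐂[D] → ℂ) w = ω * (χ₀ : 𝐂[D] → ℂ) 1 *
      (Nat.card (Subgroup.centralizer ({w} : Set 𝐂[D])) : ℂ) / (Nat.card 𝐂[D] : ℂ) := by
    rw [hω, centralChar, ← hidx]
    have hidx0 : ((Subgroup.centralizer ({w} : Set 𝐂[D])).index : ℂ) ≠ 0 := by
      intro h0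
      rw [h0, zero_mul] at hidx
      exact hC0 hidx.symm
    field_simp
  have hk' : (Nat.card D : ℂ) * (Nat.card (Subgroup.centralizer ({w} : Set 𝐂[D])) : ℂ) =
      (Nat.card Y : ℂ) * (Nat.card ((D ⊓ 𝐂[D]).subgroupOf 𝐂[D]) : ℂ) * (k : ℂ) := by
    exact_mod_cast hk
  rw [hω2]
  calc (Nat.card D : ℂ) * (b * (ω * (χ₀ : 𝐂[D] → ℂ) 1 *
      (Nat.card (Subgroup.centralizer ({w} : Set 𝐂[D])) : ℂ) / (Nat.card 𝐂[D] : ℂ)))
      = b * ω * ((χ₀ : 𝐂[D] → ℂ) 1 / (Nat.card 𝐂[D] : ℂ)) * ((Nat.card D : ℂ) *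
        (Nat.card (Subgroup.centralizer ({w} : Set 𝐂[D])) : ℂ)) := by
        field_simp
    _ = _ := by
        rw [hk', hb]
        field_simp

/-- The orbit sum vanishes on `p`-singular elements. -/
theorem eps_eq_zero_of_sing (hM : IsPModular p M) {y : G} (hy : p ∣ orderOf y) : eps M D e y = 0 := by
  classical
  rw [eps_apply]
  refine Finset.sum_eq_zero fun F _ => ?_
  rw [subgroupBlockCoeff_eq_ext0]
  by_cases h : y ∈ 𝐂[D]
  · rw [ext0_of_mem _ _ h]
    exact blockCoeff_eq_zero hM F.2 (by rwa [Subgroup.orderOf_mk])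
  · exact ext0_of_not_mem _ _ h

/-- The orbit sum vanishes off the centralizer. -/
theorem eps_eq_zero_of_not_mem {y : G} (hy : y ∉ 𝐂[D]) : eps M D e y = 0 := by
  classical
  rw [eps_apply]
  refine Finset.sum_eq_zero fun F _ => ?_
  rw [subgroupBlockCoeff_eq_ext0]
  exact ext0_of_not_mem _ _ hy

/-- The divisibility of the coefficients of the orbit sum. -/
theorem exists_mul_eps (hM : IsPModular p M) (he : IsPBlock M e)
    (hZ : IsDefectGroup p M e ((D ⊓ 𝐂[D]).subgroupOf 𝐂[D]))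
    (hstab : ∀ Y' : Subgroup G, IsPGroup p Y' → Y' ≤ 𝐍[D] → (∀ r ∈ Y', StabilizesBlock 𝐂[D] e r) →
      Y' ≤ prodSub D 𝐂[D] ((le_normalizer_self D).trans (normalizer_le_normalizer_cen D)))
    {y : G} {Y : Subgroup G} (hYp : IsPGroup p Y) (hYN : Y ≤ 𝐍[D])
    (hYy : Y ≤ Subgroup.centralizer ({y} : Set G)) :
    ∃ s, MemLocalRing M s ∧ (Nat.card D : ℂ) * eps M D e y = (Nat.card Y : ℂ) * s := by
  classical
  haveI := isPrime_of_isPModular hM
  have hYK := hYN.trans (normalizer_le_normalizer_cen D)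
  letI act : MulAction Y (BlockT M 𝐂[D]) := blockAction M Y 𝐂[D] hYK
  have hsmul : ∀ (u : Y) (F : BlockT M 𝐂[D]), (u • F : BlockT M 𝐂[D]).1 =
      twistSet (conjAut 𝐂[D] u (hYK u.2)) F.1 := fun _ _ => rfl
  let f : BlockT M 𝐂[D] → ℂ := fun F => if F ∈ orb M D e then subgroupBlockCoeff 𝐂[D] F.1 y else 0
  have hsum : eps M D e y = ∑ F, f F := by
    rw [eps_apply]
    simp only [f]
    rw [Finset.sum_ite_mem, Finset.univ_inter]
  have hcomm : ∀ r ∈ Y, r * y * r⁻¹ = y := by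
    intro r hr
    have := Subgroup.mem_centralizer_singleton_iff.1 (hYy hr)
    rw [this]
    group
  have hf : ∀ (r : Y) (F : BlockT M 𝐂[D]), f (r • F) = f F := by
    intro r F
    simp only [f]
    have hm := smul_mem_orb (M := M) (e := e) hYN r F
    by_cases hF : F ∈ orb M D e
    · rw [if_pos hF, if_pos (hm.2 hF)]
      have h1 := sbc_twistSet 𝐂[D] F.1 (hYK r.2) y
      rw [hcomm _ r.2] at h1
      rw [hsmul]
      exact h1
    · rw [if_neg hF, if_neg (fun h => hF (hm.1 h))]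
  have key : ∀ F : BlockT M 𝐂[D], ∃ s, MemLocalRing M s ∧ (Nat.card D : ℂ) * f F =
      (Nat.card (MulAction.stabilizer Y F) : ℂ) * s := by
    intro F
    by_cases hF : F ∈ orb M D e
    swap
    · refine ⟨0, memLocalRing_zero, ?_⟩
      simp [f, hF]
    obtain ⟨n, hn, hFe⟩ := mem_orb.1 hF
    have hnK := normalizer_le_normalizer_cen D hn
    set y' := n⁻¹ * y * n with hy'
    have h1 : subgroupBlockCoeff 𝐂[D] F.1 y = subgroupBlockCoeff 𝐂[D] e y' := by
      have h2 := sbc_twistSet 𝐂[D] e hnK y'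
      have e1 : n * y' * n⁻¹ = y := by rw [hy']; group
      rw [e1, ← hFe] at h2
      exact h2
    have hfF : f F = subgroupBlockCoeff 𝐂[D] e y' := by
      simp only [f]
      rw [if_pos hF, h1]
    rw [hfF]
    by_cases hy'C : y' ∈ 𝐂[D]
    swap
    · refine ⟨0, memLocalRing_zero, ?_⟩
      rw [subgroupBlockCoeff_eq_ext0, ext0_of_not_mem _ _ hy'C]
      simp
    let Y' : Subgroup G := ((MulAction.stabilizer Y F).map Y.subtype).map (MulAut.conj n⁻¹).toMonoidHom
    have hY'mem : ∀ r' ∈ Y', ∃ r : Y, r ∈ MulAction.stabilizer Y F ∧ r' = n⁻¹ * r * n := by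
      rintro _ ⟨_, ⟨r, hr, rfl⟩, rfl⟩
      exact ⟨r, hr, by simp⟩
    have hY'p : IsPGroup p Y' :=
      IsPGroup.map (hYp.to_le (Subgroup.map_subtype_le _)) _
    have hnI : n⁻¹ ∈ 𝐍[D] := Subgroup.inv_mem _ hn
    have hY'N : Y' ≤ 𝐍[D] := by
      intro r' hr'
      obtain ⟨r, -, rfl⟩ := hY'mem r' hr'
      exact Subgroup.mul_mem _ (Subgroup.mul_mem _ hnI (hYN r.2)) hn
    have hY'st : ∀ r ∈ Y', StabilizesBlock 𝐂[D] e r := by
      intro r' hr'
      obtain ⟨r, hr, rfl⟩ := hY'mem r' hr'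
      have hr1 : twistSet (conjAut 𝐂[D] r (hYK r.2)) F.1 = F.1 := by
        have := MulAction.mem_stabilizer_iff.1 hr
        have h3 := congrArg Subtype.val this
        rw [hsmul] at h3
        exact h3
      rw [hFe] at hr1
      have hmem : n⁻¹ * r * n ∈ Subgroup.normalizer ((𝐂[D] : Subgroup G) : Set G) :=
        Subgroup.mul_mem _ (Subgroup.mul_mem _ (Subgroup.inv_mem _ hnK) (hYK r.2)) hnK
      apply stabilizes_of_twistSet_eq hmem
      have e1 : conjAut 𝐂[D] (n⁻¹ * r * n) hmem =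
          conjAut 𝐂[D] n⁻¹ (Subgroup.inv_mem _ hnK) * (conjAut 𝐂[D] r (hYK r.2) * conjAut 𝐂[D] n hnK) := by
        ext c
        simp only [MulAut.mul_apply, coe_conjAut]
        group
      have e2 : conjAut 𝐂[D] n⁻¹ (Subgroup.inv_mem _ hnK) * conjAut 𝐂[D] n hnK = 1 := by
        ext c
        simp only [MulAut.mul_apply, coe_conjAut, MulAut.one_apply]
        group
      rw [e1, twistSet_mul, twistSet_mul, hr1, ← twistSet_mul, e2, twistSet_one]
    have hY'C := hstab Y' hY'p hY'N hY'st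
    have hY'y : Y' ≤ Subgroup.centralizer ({y'} : Set G) := by
      intro r' hr'
      obtain ⟨r, -, rfl⟩ := hY'mem r' hr'
      rw [Subgroup.mem_centralizer_singleton_iff]
      have h3 := Subgroup.mem_centralizer_singleton_iff.1 (hYy r.2)
      calc n⁻¹ * (r : G) * n * y' = n⁻¹ * ((r : G) * y) * n := by rw [hy']; group
        _ = n⁻¹ * (y * (r : G)) * n := by rw [h3]
        _ = y' * (n⁻¹ * r * n) := by rw [hy']; group
    obtain ⟨s, hs, h3⟩ := exists_mul_sbc hM he hZ hy'C hY'C hY'y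
    refine ⟨s, hs, ?_⟩
    have hc : Nat.card Y' = Nat.card (MulAction.stabilizer Y F) := by
      simp only [Y']
      rw [Subgroup.card_map_of_injective (MulAut.conj n⁻¹).injective,
        Subgroup.card_map_of_injective Subtype.val_injective]
    rw [h3, hc]
  choose s hsR hs using key
  obtain ⟨t, ht, h⟩ := exists_sum_eq_mul (Y := Y) (X := BlockT M 𝐂[D]) (M := M) (Nat.card D : ℂ) f s hf hs hsR
  exact ⟨t, ht, by rw [hsum, h]⟩

/-- A `p`-subgroup in the stabilizer of a maximal pair lies in `D C_G(D)`. -/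
theorem le_prodSub_of_stab (hM : IsPModular p M) {B : Set (IrrCharacter G)}
    (hmax : IsMaximalBrauerPair p M B D e) {Y : Subgroup G} (hYp : IsPGroup p Y) (hYN : Y ≤ 𝐍[D])
    (hYst : ∀ r ∈ Y, StabilizesBlock 𝐂[D] e r) :
    Y ≤ prodSub D 𝐂[D] ((le_normalizer_self D).trans (normalizer_le_normalizer_cen D)) := by
  classical
  haveI := isPrime_of_isPModular hM
  have he := hmax.1.1
  have hf : IsPBlock M e := he.2
  let T : Subgroup G := 𝐍[D] ⊓ stabSub 𝐂[D] e hf
  have hT : ∀ y : G, y ∈ T ↔ y ∈ 𝐍[D] ∧ StabilizesBlock 𝐂[D] e y := fun y => Iff.rfl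
  have hTN : T ≤ 𝐍[D] := inf_le_left
  obtain ⟨hQT, hCT, -⟩ := stab_facts hT
  have hDp : IsPGroup p D := he.1
  obtain ⟨E, hE, hEc⟩ := exists_block_stab hM hDp hf hT
  have hfn : ∀ y : G, SubpairLE p M (D ^^ y) (conjBlock D y e) D e →
      Nat.card (D ⊓ 𝐍[D ^^ y] : Subgroup G) ≤ Nat.card (D ⊓ 𝐍[D] : Subgroup G) := by
    intro y hy
    have h1 := le_of_subpairLE hy
    have h2 : (D ^^ y) = D := Subgroup.eq_of_le_of_card_ge h1 (by
      rw [Subgroup.card_map_of_injective (MulAut.conj y).injective])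
    rw [h2]
  have hD := isDefectGroup_nor_of_max hM hmax hf Relation.ReflTransGen.refl hT hE hEc hfn
  have m : CenMatch (D.subgroupOf T) D := cenMatch_of_stable hQT hCT
  haveI := normal_centralizer_subgroupOf hTN hQT
  have hidx := not_dvd_index_sup_of_isDefectGroup hM
    (Subgroup.centralizer ((D.subgroupOf T : Subgroup T) : Set T))
    (c := twistSetE m.iso.symm e) (isPBlock_twistSetE _ hf)
    (fun x => m.stabilizes_hat ((hT x).1 x.2).2) hE
    (fun t => by rw [hEc, m.sbc_eq, m.twistSetE_symm]) hD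
  intro r hr
  have hrT : r ∈ T := (hT r).2 ⟨hYN hr, hYst r hr⟩
  have hD1 : (D ⊓ 𝐍[D]).subgroupOf T = D.subgroupOf T := by
    rw [inf_eq_left.2 (le_normalizer_self D)]
  rw [hD1] at hidx
  haveI hDn : (D.subgroupOf T).Normal := by
    refine ⟨fun n hn t => ?_⟩
    rw [Subgroup.mem_subgroupOf] at hn ⊢
    exact (Subgroup.mem_normalizer_iff.1 (hTN t.2) _).1 hn
  set C' := Subgroup.centralizer ((D.subgroupOf T : Subgroup T) : Set T) with hC'
  set H : Subgroup T := D.subgroupOf T ⊔ C' with hH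
  have hrH : (⟨r, hrT⟩ : T) ∈ H := by
    haveI : H.Normal := Subgroup.sup_normal _ _
    obtain ⟨k, hk⟩ := (IsPGroup.iff_orderOf.1 (hYp)) ⟨r, hr⟩
    have hord : orderOf (⟨r, hrT⟩ : T) = p ^ k := by
      have h1 : orderOf (⟨r, hr⟩ : Y) = orderOf r := Subgroup.orderOf_mk r hr
      have h2 : orderOf (⟨r, hrT⟩ : T) = orderOf r := Subgroup.orderOf_mk r hrT
      rw [h2, ← h1]
      rw [hk]
    letI : Fintype (T ⧸ H) := Fintype.ofFinite _
    have h3 : orderOf ((⟨r, hrT⟩ : T) : T ⧸ H) ∣ p ^ k := hord ▸ orderOf_map_dvd (QuotientGroup.mk' H) _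
    have h4 : orderOf ((⟨r, hrT⟩ : T) : T ⧸ H) ∣ H.index := by
      rw [Subgroup.index_eq_card]
      exact orderOf_dvd_natCard _
    have h5 : Nat.Coprime (p ^ k) H.index :=
      Nat.Coprime.pow_left _ ((Nat.Prime.coprime_iff_not_dvd hp.out).2 hidx)
    have h6 := Nat.Coprime.eq_one_of_dvd (h5.coprime_dvd_left h3) h4
    rw [orderOf_eq_one_iff] at h6
    exact (QuotientGroup.eq_one_iff _).1 h6
  rw [← SetLike.mem_coe, hH, Subgroup.mul_normal] at hrH
  obtain ⟨d, hd, c, hc, hdc⟩ := Set.mem_mul.1 hrH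
  refine ⟨(d : G), Subgroup.mem_subgroupOf.1 hd, ?_⟩
  have h7 : ((c : T) : G) ∈ 𝐂[D] := (m.iff c).1 hc
  have h8 : (d : G) * (c : G) = r := congrArg Subtype.val hdc
  have h9 : (d : G)⁻¹ * r = c := by
    rw [← h8]
    group
  rw [h9]
  exact h7

/-- The order of the stabilizer of a maximal pair. -/
theorem exists_index_stab (hM : IsPModular p M) {B : Set (IrrCharacter G)}
    (hmax : IsMaximalBrauerPair p M B D e) (hf : IsPBlock M e) [M.IsPrime] :
    ∃ i : ℕ, ¬ p ∣ i ∧ Nat.card (𝐍[D] ⊓ stabSub 𝐂[D] e hf : Subgroup G) *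
      Nat.card (D ⊓ 𝐂[D] : Subgroup G) = i * (Nat.card D * Nat.card 𝐂[D]) := by
  classical
  have he := hmax.1.1
  let T : Subgroup G := 𝐍[D] ⊓ stabSub 𝐂[D] e hf
  have hT : ∀ y : G, y ∈ T ↔ y ∈ 𝐍[D] ∧ StabilizesBlock 𝐂[D] e y := fun y => Iff.rfl
  have hTN : T ≤ 𝐍[D] := inf_le_left
  obtain ⟨hQT, hCT, -⟩ := stab_facts hT
  have hDp : IsPGroup p D := he.1
  obtain ⟨E, hE, hEc⟩ := exists_block_stab hM hDp hf hT
  have hfn : ∀ y : G, SubpairLE p M (D ^^ y) (conjBlock D y e) D e →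
      Nat.card (D ⊓ 𝐍[D ^^ y] : Subgroup G) ≤ Nat.card (D ⊓ 𝐍[D] : Subgroup G) := by
    intro y hy
    have h1 := le_of_subpairLE hy
    have h2 : (D ^^ y) = D := Subgroup.eq_of_le_of_card_ge h1 (by
      rw [Subgroup.card_map_of_injective (MulAut.conj y).injective])
    rw [h2]
  have hD := isDefectGroup_nor_of_max hM hmax hf Relation.ReflTransGen.refl hT hE hEc hfn
  have m : CenMatch (D.subgroupOf T) D := cenMatch_of_stable hQT hCT
  haveI := normal_centralizer_subgroupOf hTN hQT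
  have hidx := not_dvd_index_sup_of_isDefectGroup hM
    (Subgroup.centralizer ((D.subgroupOf T : Subgroup T) : Set T))
    (c := twistSetE m.iso.symm e) (isPBlock_twistSetE _ hf)
    (fun x => m.stabilizes_hat ((hT x).1 x.2).2) hE
    (fun t => by rw [hEc, m.sbc_eq, m.twistSetE_symm]) hD
  have hD1 : (D ⊓ 𝐍[D]).subgroupOf T = D.subgroupOf T := by
    rw [inf_eq_left.2 (le_normalizer_self D)]
  rw [hD1] at hidx
  set C' := Subgroup.centralizer ((D.subgroupOf T : Subgroup T) : Set T) with hC'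
  set H : Subgroup T := D.subgroupOf T ⊔ C' with hH
  refine ⟨H.index, hidx, ?_⟩
  have hset : (H : Set T) = ((D.subgroupOf T : Subgroup T) : Set T) * (C' : Set T) := by
    rw [hH, Subgroup.mul_normal]
  have h1 := Cfsg.Agent.Lib.BrauerWielandt.card_of_set_mul hset
  have hinf : D.subgroupOf T ⊓ C' = (D ⊓ 𝐂[D]).subgroupOf T := by
    ext t
    rw [Subgroup.mem_inf, Subgroup.mem_subgroupOf, Subgroup.mem_subgroupOf, Subgroup.mem_inf, m.iff t]
  have c1 : Nat.card (D.subgroupOf T) = Nat.card D :=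
    Nat.card_congr (Subgroup.subgroupOfEquivOfLe hQT).toEquiv
  have c2 : Nat.card C' = Nat.card 𝐂[D] := Nat.card_congr m.iso.toEquiv
  have c3 : Nat.card ((D ⊓ 𝐂[D]).subgroupOf T) = Nat.card (D ⊓ 𝐂[D] : Subgroup G) :=
    Nat.card_congr (Subgroup.subgroupOfEquivOfLe (inf_le_right.trans hCT)).toEquiv
  rw [hinf, c1, c2, c3] at h1
  have h2 := H.card_mul_index
  change Nat.card T * _ = _
  rw [← h2, ← h1]
  ring

/-- The number of conjugates of a block. -/
theorem card_orb_mul (hf : IsPBlock M e) [M.IsPrime] :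
    (orb M D e).card * Nat.card (𝐍[D] ⊓ stabSub 𝐂[D] e hf : Subgroup G) = Nat.card 𝐍[D] := by
  classical
  letI act : MulAction 𝐍[D] (BlockT M 𝐂[D]) := blockAction M 𝐍[D] 𝐂[D] (normalizer_le_normalizer_cen D)
  have hsmul : ∀ (u : 𝐍[D]) (F : BlockT M 𝐂[D]), (u • F : BlockT M 𝐂[D]).1 =
      twistSet (conjAut 𝐂[D] u (normalizer_le_normalizer_cen D u.2)) F.1 := fun _ _ => rfl
  let x₀ : BlockT M 𝐂[D] := ⟨e, hf⟩
  have h1 : ((orb M D e : Finset _) : Set (BlockT M 𝐂[D])) = MulAction.orbit 𝐍[D] x₀ := by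
    ext F
    rw [Finset.mem_coe, mem_orb]
    constructor
    · rintro ⟨n, hn, hF⟩
      exact ⟨⟨n, hn⟩, Subtype.ext (by rw [hsmul]; exact hF.symm)⟩
    · rintro ⟨n, rfl⟩
      exact ⟨n, n.2, hsmul n x₀⟩
  have h2 : (MulAction.stabilizer 𝐍[D] x₀).map 𝐍[D].subtype = 𝐍[D] ⊓ stabSub 𝐂[D] e hf := by
    ext x
    constructor
    · rintro ⟨n, hn, rfl⟩
      refine ⟨n.2, ?_⟩
      apply stabilizes_of_twistSet_eq (normalizer_le_normalizer_cen D n.2)
      have := congrArg Subtype.val (MulAction.mem_stabilizer_iff.1 hn)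
      rw [hsmul] at this
      exact this
    · rintro ⟨hx, hst⟩
      refine ⟨⟨x, hx⟩, MulAction.mem_stabilizer_iff.2 (Subtype.ext ?_), rfl⟩
      rw [hsmul]
      exact twistSet_eq_of_stabilizes hf hst
  have h3 := MulAction.index_stabilizer 𝐍[D] x₀
  rw [← h1, Set.ncard_coe_finset] at h3
  rw [← h3, ← h2, Subgroup.card_map_of_injective Subtype.val_injective, mul_comm]
  exact Subgroup.card_mul_index _

/-- The value at `1` of the orbit sum is a unit multiple. -/
theorem not_memLocalIdeal_eps_one (hM : IsPModular p M) {B : Set (IrrCharacter G)}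
    (hmax : IsMaximalBrauerPair p M B D e)
    (hZ : IsDefectGroup p M e ((D ⊓ 𝐂[D]).subgroupOf 𝐂[D])) {U : Subgroup G} {u' : ℕ} (hu' : ¬ p ∣ u')
    (hUc : Nat.card 𝐍[D] = Nat.card U * u') :
    ¬ MemLocalIdeal M ((Nat.card D : ℂ) * eps M D e 1 / (Nat.card U : ℂ)) := by
  classical
  haveI := isPrime_of_isPModular hM
  have hf : IsPBlock M e := hmax.1.1.2
  obtain ⟨i, hi, hic⟩ := exists_index_stab hM hmax hf
  have ho := card_orb_mul (D := D) (M := M) hf
  obtain ⟨χ₀, hχ₀, hcoef, hbR, hbN⟩ := exists_unit_of_central hM hf hZ (inf_subgroupOf_le_center D)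
  have hZc : Nat.card ((D ⊓ 𝐂[D]).subgroupOf 𝐂[D]) = Nat.card (D ⊓ 𝐂[D] : Subgroup G) :=
    Nat.card_congr (Subgroup.subgroupOfEquivOfLe inf_le_right).toEquiv
  rw [hZc] at hcoef hbR hbN
  set b := (χ₀ : 𝐂[D] → ℂ) 1 * (Nat.card (D ⊓ 𝐂[D] : Subgroup G) : ℂ) / (Nat.card 𝐂[D] : ℂ) with hb
  -- the value at one
  have h1 : eps M D e 1 = ((orb M D e).card : ℂ) * (b * (χ₀ : 𝐂[D] → ℂ) 1) := by
    have h2 : ∀ F ∈ orb M D e, subgroupBlockCoeff 𝐂[D] F.1 1 = b * (χ₀ : 𝐂[D] → ℂ) 1 := by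
      intro F hF
      obtain ⟨n, hn, hFe⟩ := mem_orb.1 hF
      have h3 := sbc_twistSet 𝐂[D] e (normalizer_le_normalizer_cen D hn) 1
      rw [← hFe] at h3
      have e1 : n * 1 * n⁻¹ = 1 := by group
      rw [e1] at h3
      rw [h3, subgroupBlockCoeff_eq_ext0, ext0_of_mem _ _ (Subgroup.one_mem _)]
      have h4 := hcoef ⟨1, Subgroup.one_mem _⟩
      rw [h4]
      congr 1
      unfold regInv
      have e2 : (⟨1, Subgroup.one_mem _⟩ : 𝐂[D])⁻¹ = 1 := by
        apply Subtype.ext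
        simp
      rw [e2]
      apply pRegularPart_of_reg
      rw [orderOf_one]
      exact hp.out.one_lt.ne' ∘ Nat.dvd_one.1
    rw [eps_apply, Finset.sum_congr rfl h2, Finset.sum_const, nsmul_eq_mul]
  have hU0 : (Nat.card U : ℂ) ≠ 0 := by exact_mod_cast Nat.card_pos.ne'
  have hi0 : (i : ℂ) ≠ 0 := by
    intro h
    have : i = 0 := by exact_mod_cast h
    exact hi (this ▸ dvd_zero p)
  have hC0 : (Nat.card 𝐂[D] : ℂ) ≠ 0 := by exact_mod_cast Nat.card_pos.ne'
  have hform : (Nat.card D : ℂ) * eps M D e 1 / (Nat.card U : ℂ) = b * (b * ((u' : ℂ) * (i : ℂ)⁻¹)) := by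
    rw [h1]
    have h5 : ((orb M D e).card : ℂ) * (Nat.card (𝐍[D] ⊓ stabSub 𝐂[D] e hf : Subgroup G) : ℂ) =
        (Nat.card U : ℂ) * (u' : ℂ) := by
      have := ho.trans hUc
      exact_mod_cast this
    have h6 : (Nat.card (𝐍[D] ⊓ stabSub 𝐂[D] e hf : Subgroup G) : ℂ) *
        (Nat.card (D ⊓ 𝐂[D] : Subgroup G) : ℂ) = (i : ℂ) * ((Nat.card D : ℂ) * (Nat.card 𝐂[D] : ℂ)) := by
      exact_mod_cast hic
    have h7 : (Nat.card U : ℂ) * (u' : ℂ) * (Nat.card (D ⊓ 𝐂[D] : Subgroup G) : ℂ) =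
        ((orb M D e).card : ℂ) * ((i : ℂ) * ((Nat.card D : ℂ) * (Nat.card 𝐂[D] : ℂ))) := by
      rw [← h5, mul_assoc, h6]
    rw [div_eq_iff hU0]
    have h8 : (Nat.card D : ℂ) * (((orb M D e).card : ℂ) * (b * (χ₀ : 𝐂[D] → ℂ) 1)) =
        b * (χ₀ : 𝐂[D] → ℂ) 1 * ((orb M D e).card * ((i : ℂ) * ((Nat.card D : ℂ) * (Nat.card 𝐂[D] : ℂ)))) *
          ((i : ℂ)⁻¹ * (Nat.card 𝐂[D] : ℂ)⁻¹) := by
      field_simp
    rw [h8, ← h7, hb]
    field_simp
  rw [hform]
  intro h
  have hu'R : MemLocalRing M (u' : ℂ) := memLocalRing_natCast u'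
  have hiR : MemLocalRing M ((i : ℂ)⁻¹) := memLocalRing_inv_natCast hM hi
  rcases (memLocalIdeal_mul_iff hbR (memLocalRing_mul hbR (memLocalRing_mul hu'R hiR))).1 h with h2 | h2
  · exact hbN h2
  rcases (memLocalIdeal_mul_iff hbR (memLocalRing_mul hu'R hiR)).1 h2 with h3 | h3
  · exact hbN h3
  rcases (memLocalIdeal_mul_iff hu'R hiR).1 h3 with h4 | h4
  · exact not_memLocalIdeal_natCast hM hu' h4
  · have h5 := memLocalIdeal_mul_left (memLocalRing_natCast i) h4
    rw [mul_inv_cancel₀ hi0] at h5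
    exact not_memLocalIdeal_one h5

/-- **Green's theorem on defect groups.** -/
theorem exists_green (hM : IsPModular p M) {B : Set (IrrCharacter G)} (hB : IsPBlock M B)
    (hD : IsDefectGroup p M B D) (P : Sylow p G) (hDP : D ≤ P) :
    ∃ x : G, ¬ p ∣ orderOf x ∧
      (∃ S : Sylow p (Subgroup.centralizer ({x} : Set G)),
        (S : Subgroup (Subgroup.centralizer ({x} : Set G))).map
          (Subgroup.centralizer ({x} : Set G)).subtype = D) ∧
      (P : Subgroup G) ⊓ (P : Subgroup G).map (MulAut.conj x).toMonoidHom = D := by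
  classical
  haveI := isPrime_of_isPModular hM
  have hDp : IsPGroup p D := P.isPGroup'.to_le hDP
  -- a maximal pair on `D`
  obtain ⟨g, hg, hle, -⟩ := isDefectGroup_iff.1 hD
  have hgC : g ∈ 𝐂[D] := mem_centralizer_comm.2 hle
  obtain ⟨ξ, hξ⟩ := exists_occ_of_unit hM hDp (α := blockCoeff B)
    ((inv_blockCoeff B _)) ((inv_blockCoeff B _)) (memLocalRing_blockCoeff hB)
    (Cfsg.Agent.Lib.BlkOrth.conv_blockCoeff B) hgC hg.2.1
  set e : Set (IrrCharacter 𝐂[D]) := blockOf M (ξ : 𝐂[D] → ℂ) with he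
  have hocc := occ_blockOf (S := D) (α := blockCoeff B) (inv_blockCoeff B _)
    (memLocalRing_blockCoeff hB) hξ
  have hpair : IsBrauerPairOf p M B D e :=
    ⟨⟨hDp, ⟨ξ, rfl⟩⟩, hB, (occ_iff _ _ _).1 hocc⟩
  have hmax : IsMaximalBrauerPair p M B D e := isMaximal_of_isDefectGroup hM hpair hD
  have hf : IsPBlock M e := ⟨ξ, rfl⟩
  have hZ : IsDefectGroup p M e ((D ⊓ 𝐂[D]).subgroupOf 𝐂[D]) := by
    refine isDefectGroup_cen_of_max hM hmax hf Relation.ReflTransGen.refl ?_
    intro y hy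
    have h1 := le_of_subpairLE hy
    have h2 : (D ^^ y) = D := Subgroup.eq_of_le_of_card_ge h1 (by
      rw [Subgroup.card_map_of_injective (MulAut.conj y).injective])
    rw [h2]
  -- the group `U`
  have hDN : D ≤ 𝐍[D] := le_normalizer_self D
  have hPN : IsPGroup p (((P : Subgroup G) ⊓ 𝐍[D] : Subgroup G).subgroupOf 𝐍[D]) :=
    IsPGroup.comap_of_injective (P.isPGroup'.to_le inf_le_left) _ Subtype.val_injective
  obtain ⟨S, hS⟩ := hPN.exists_le_sylow
  set U : Subgroup G := (S : Subgroup 𝐍[D]).map 𝐍[D].subtype with hU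
  have hUN : U ≤ 𝐍[D] := Subgroup.map_subtype_le _
  have hUp : IsPGroup p U := S.isPGroup'.map _
  have hPU : (P : Subgroup G) ⊓ 𝐍[D] ≤ U := by
    intro r hr
    exact ⟨⟨r, hr.2⟩, hS (Subgroup.mem_subgroupOf.2 hr), rfl⟩
  have hDU : D ≤ U := (le_inf hDP hDN).trans hPU
  have hUc : Nat.card 𝐍[D] = Nat.card U * (S : Subgroup 𝐍[D]).index := by
    rw [hU, Subgroup.card_map_of_injective Subtype.val_injective, Subgroup.card_mul_index]
  have hu' : ¬ p ∣ (S : Subgroup 𝐍[D]).index := S.not_dvd_index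
  have hc := not_memLocalIdeal_eps_one hM hmax hZ hu' hUc
  have hstab : ∀ Y' : Subgroup G, IsPGroup p Y' → Y' ≤ 𝐍[D] → (∀ r ∈ Y', StabilizesBlock 𝐂[D] e r) →
      Y' ≤ prodSub D 𝐂[D] ((le_normalizer_self D).trans (normalizer_le_normalizer_cen D)) :=
    fun Y' h1 h2 h3 => le_prodSub_of_stab hM hmax h1 h2 h3
  obtain ⟨x, hx, hxU⟩ := hecke_core hM (a := eps M D e) hUp hDU hUN
    (fun u hu y => eps_conj (hUN hu) y) eps_conv
    (fun t ht ht1 => by
      apply eps_eq_zero_of_sing hM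
      obtain ⟨k, hk⟩ := (IsPGroup.iff_orderOf.1 hUp) ⟨t, ht⟩
      rw [Subgroup.orderOf_mk] at hk
      rw [hk]
      rcases k with _ | k
      · rw [pow_zero, orderOf_eq_one_iff] at hk
        exact absurd hk ht1
      · exact dvd_pow_self p (Nat.succ_ne_zero k))
    memLocalRing_eps
    (fun y hy => by
      by_contra h
      exact hy (eps_eq_zero_of_not_mem (fun h2 => h (Subgroup.centralizer_le_normalizer _ h2))))
    (fun y Y hYU hYy => exists_mul_eps hM hf hZ hstab (hUp.to_le hYU) (hYU.trans hUN) hYy) hc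
  have hx0 : eps M D e x ≠ 0 := ne_zero_of_not_memLocalIdeal hx
  have hxC : x ∈ 𝐂[D] := by
    by_contra h
    exact hx0 (eps_eq_zero_of_not_mem h)
  have hxN : x ∈ 𝐍[D] := Subgroup.centralizer_le_normalizer _ hxC
  have hmaxin : MaxIn p x D := maxIn_of_eps_unit hM hpair.1 (nmax_of_maximal hM hmax) hxC hx
  refine ⟨x, fun h => hx0 (eps_eq_zero_of_sing hM h), ⟨hmaxin.sylow, hmaxin.map_sylow⟩, ?_⟩
  set R : Subgroup G := (P : Subgroup G) ⊓ (P : Subgroup G).map (MulAut.conj x).toMonoidHom with hR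
  have hDR : D ≤ R := by
    intro d hd
    refine ⟨hDP hd, ?_⟩
    refine ⟨d, hDP hd, ?_⟩
    have := (Subgroup.mem_centralizer_iff.1 hxC) d hd
    change x * d * x⁻¹ = d
    rw [← this]
    group
  have hRp : IsPGroup p R := P.isPGroup'.to_le inf_le_left
  rcases lt_or_eq_of_le hDR with hlt | h
  swap
  · exact h.symm
  exfalso
  have h1 := lt_inf_normalizer hRp hlt
  obtain ⟨r, hr, hrD⟩ := SetLike.exists_of_lt h1
  apply hrD
  rw [← hxU]
  have hrP : r ∈ (P : Subgroup G) := hr.1.1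
  have hrN : r ∈ 𝐍[D] := hr.2
  refine ⟨hPU ⟨hrP, hrN⟩, ?_⟩
  obtain ⟨r₀, hr₀, hr₀e⟩ := hr.1.2
  have hr₀N : r₀ ∈ 𝐍[D] := by
    have e1 : r₀ = x⁻¹ * r * x := by
      rw [← hr₀e]
      simp [mul_assoc]
    rw [e1]
    exact Subgroup.mul_mem _ (Subgroup.mul_mem _ (Subgroup.inv_mem _ hxN) hrN) hxN
  exact ⟨r₀, hPU ⟨hr₀, hr₀N⟩, hr₀e⟩

end Main

end Cfsg.Agent.Lib.GreenDefect
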