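import Mathlib
import Cfsg.Agent.Lib.GreenDefect
import Cfsg.Agent.Lib.BlockSecond
import Cfsg.Agent.Lib.BlkFirst

/-!
# Blocks of `H = P C_G(P)` and blocks of `C_G(P)`

For a `p`-subgroup `P` of `G` and `H = P C_G(P)`, the idempotent of a block of `H` is the idempotent
of a block `e` of `C_G(P)`.  If `b` induces `B`, then `(P, e)` is a Brauer pair of `B`.  We derive
the criterion for `P` to be a defect group of `B = b^G`.
-/

set_option autoImplicit false
set_option linter.unusedSectionVars false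
set_option linter.unusedVariables false
set_option linter.style.haveILetI false

namespace Cfsg.Agent.Lib.CentricInd

open Cfsg Cfsg.Agent.Lib.CharBasic Cfsg.Agent.Lib.CharInd Cfsg.Agent.Lib.CharIntegrality
open Cfsg.Agent.Lib.BlockLocal Cfsg.Agent.Lib.BlockIdem Cfsg.Agent.Lib.BlockNormal
open Cfsg.Agent.Lib.BrauerMap Cfsg.Agent.Lib.BrauerPair Cfsg.Agent.Lib.BrauerSub
open Cfsg.Agent.Lib.BrauerConj Cfsg.Agent.Lib.BrauerThird Cfsg.Agent.Lib.BrauerMax
open Cfsg.Agent.Lib.BrauerStab Cfsg.Agent.Lib.BlockDefect Cfsg.Agent.Lib.BrauerCen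
open Cfsg.Agent.Lib.BrauerFull Cfsg.Agent.Lib.BrauerLift
open Cfsg.Agent.Lib.BrauerSat Cfsg.Agent.Lib.GreenDefect Cfsg.Agent.Lib.BlockSecond
open scoped ComplexConjugate

universe u

variable {G : Type u} [Group G] [Fintype G] {p : ℕ} [hp : Fact p.Prime] {M : Ideal AlgInt}

local notation "𝐂[" R "]" => Subgroup.centralizer ((R : Subgroup G) : Set G)
local notation "𝐍[" R "]" => Subgroup.normalizer ((R : Subgroup G) : Set G)
local notation Q "^^" x => Subgroup.map (MulEquiv.toMonoidHom (MulAut.conj (x : G))) (Q : Subgroup G)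

noncomputable local instance fintypeSubC (K : Subgroup G) : Fintype K := Fintype.ofFinite K

/-- Two blocks with the same idempotent are equal. -/
theorem eq_of_blockCoeff_eq {K : Type u} [Group K] [Fintype K] [M.IsPrime] {F F' : Set (IrrCharacter K)}
    (hF : IsPBlock M F) (hF' : IsPBlock M F') (h : blockCoeff F = blockCoeff F') : F = F' := by
  by_contra hne
  have h1 := conv_blockCoeff_of_ne hF hF' hne
  rw [← h, conv_blockCoeff_self] at h1
  obtain ⟨χ, rfl⟩ := hF
  exact blockCoeff_ne_zero_of_mem (mem_blockOf_self χ) h1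

/-- The stabilizer of a block through its idempotent. -/
theorem stabilizes_iff_sbc_conj [M.IsPrime] {K : Subgroup G} {F : Set (IrrCharacter K)} (hF : IsPBlock M F)
    {u : G} (hu : u ∈ Subgroup.normalizer (K : Set G)) :
    StabilizesBlock K F u ↔ ∀ x, subgroupBlockCoeff K F (u * x * u⁻¹) = subgroupBlockCoeff K F x := by
  constructor
  · intro h x
    exact subgroupBlockCoeff_conj K F u hu (twistSet_eq_of_stabilizes hF h) x
  · intro h
    apply stabilizes_of_twistSet_eq hu
    apply eq_of_blockCoeff_eq (isPBlock_twistSet _ hF) hF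
    funext k
    have h1 := blockCoeff_twistSet (conjAut K u hu) F ((conjAut K u hu).symm k)
    have h2 : conjAut K u hu ((conjAut K u hu).symm k) = k := MulEquiv.apply_symm_apply _ _
    rw [h2] at h1
    rw [h1]
    have h3 := h ((k : G))
    have h4 := h (((conjAut K u hu).symm k : K) : G)
    rw [subgroupBlockCoeff_eq_ext0] at h4
    have h5 : u * (((conjAut K u hu).symm k : K) : G) * u⁻¹ = k := by
      rw [coe_conjAut_symm]
      group
    rw [h5, ext0_coe, ext0_coe] at h4
    exact h4.symm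

variable {P H : Subgroup G}

theorem le_normalizer_of_eq_sup (hH : H = P ⊔ 𝐂[P]) : H ≤ 𝐍[P] := by
  rw [hH]
  exact sup_le (le_normalizer_self P) (Subgroup.centralizer_le_normalizer _)

theorem normalizer_le_normalizer_of_eq_sup (hH : H = P ⊔ 𝐂[P]) : 𝐍[P] ≤ Subgroup.normalizer (H : Set G) := by
  intro g hg
  rw [hH]
  exact normalizer_sup_of hg (normalizer_le_normalizer_centralizer P hg)

/-- Every element of `H = P C_G(P)` stabilizes every block of `C_G(P)`. -/
theorem stabilizes_of_mem_sup [M.IsPrime] (hH : H = P ⊔ 𝐂[P]) {e : Set (IrrCharacter 𝐂[P])}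
    (he : IsPBlock M e) {x : G} (hx : x ∈ H) : StabilizesBlock 𝐂[P] e x := by
  have h : H ≤ stabSub 𝐂[P] e he := by
    rw [hH]
    refine sup_le (fun u hu => mem_stabSub.2 ?_) (fun c hc => mem_stabSub.2 ?_)
    · exact stabilizes_of_centralizes (fun k hk => by
        rw [(Subgroup.mem_centralizer_iff.1 hk) u hu]
        group) e
    · exact stabilizes_of_mem_centralizer hc e
  exact mem_stabSub.1 (h hx)

/-- **The idempotent of a block of `P C_G(P)` is the idempotent of a block of `C_G(P)`.** -/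
theorem exists_block_match (hM : IsPModular p M) (hP : IsPGroup p P) (hH : H = P ⊔ 𝐂[P])
    {b : Set (IrrCharacter H)} (hb : IsPBlock M b) :
    ∃ e : Set (IrrCharacter 𝐂[P]), IsPBlock M e ∧ ∀ t : H, blockCoeff b t = subgroupBlockCoeff 𝐂[P] e (t : G) := by
  classical
  haveI := isPrime_of_isPModular hM
  have hPH : P ≤ H := hH ▸ le_sup_left
  have hCH : 𝐂[P] ≤ H := hH ▸ le_sup_right
  have hHN := le_normalizer_of_eq_sup hH
  by_contra hcon
  push Not at hcon
  -- for each block of `C` the corresponding block of `H` differs from `b`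
  have h1 : ∀ F : BlockT M 𝐂[P], CharIntegrality.conv (ext0 H (blockCoeff b)) (subgroupBlockCoeff 𝐂[P] F.1) = 0 := by
    intro F
    obtain ⟨E, hE, hEc⟩ := exists_block_of_stabilizer hM hP hPH hCH hHN F.2
      (fun x hx => stabilizes_of_mem_sup hH F.2 hx)
    have hne : b ≠ E := by
      rintro rfl
      obtain ⟨t, ht⟩ := hcon F.1 F.2
      exact ht (hEc t)
    have h2 := conv_blockCoeff_of_ne hb hE hne
    have h3 : subgroupBlockCoeff 𝐂[P] F.1 = ext0 H (blockCoeff E) := by
      funext x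
      by_cases hx : x ∈ H
      · rw [ext0_of_mem H _ hx, hEc]
      · rw [ext0_of_not_mem H _ hx, subgroupBlockCoeff_eq_ext0,
          ext0_of_not_mem _ _ (fun h => hx (hCH h))]
    rw [h3, conv_ext0, h2, ext0_zero]
  have h4 : CharIntegrality.conv (ext0 H (blockCoeff b)) (delta : G → ℂ) = 0 := by
    rw [← sum_subgroupBlockCoeff (M := M) 𝐂[P]]
    funext x
    have h5 : ∀ F : BlockT M 𝐂[P], ∀ x,
        CharIntegrality.conv (ext0 H (blockCoeff b)) (subgroupBlockCoeff 𝐂[P] F.1) x = 0 :=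
      fun F x => congrFun (h1 F) x
    unfold CharIntegrality.conv at h5 ⊢
    simp only [Finset.sum_apply, Finset.mul_sum, Pi.zero_apply]
    rw [Finset.sum_comm]
    exact Finset.sum_eq_zero fun F _ => h5 F x
  rw [BlockSecond.conv_delta'] at h4
  obtain ⟨χ, rfl⟩ := id hb
  have h6 : blockCoeff (blockOf M (χ : H → ℂ)) = 0 := by
    funext t
    have := congrFun h4 t
    rw [ext0_coe] at this
    exact this
  exact blockCoeff_ne_zero_of_mem (mem_blockOf_self χ) h6


/-- The idempotents of `H` and `C_G(P)` agree as functions on `G`. -/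
theorem ext0_eq_sbc (hCH : 𝐂[P] ≤ H) {b : Set (IrrCharacter H)} {e : Set (IrrCharacter 𝐂[P])}
    (hbe : ∀ t : H, blockCoeff b t = subgroupBlockCoeff 𝐂[P] e (t : G)) :
    ext0 H (blockCoeff b) = subgroupBlockCoeff 𝐂[P] e := by
  funext x
  by_cases hx : x ∈ H
  · rw [ext0_of_mem H _ hx, hbe]
  · rw [ext0_of_not_mem H _ hx, subgroupBlockCoeff_eq_ext0, ext0_of_not_mem _ _ (fun h => hx (hCH h))]

theorem sbc_eq_sbc (hCH : 𝐂[P] ≤ H) {b : Set (IrrCharacter H)} {e : Set (IrrCharacter 𝐂[P])}
    (hbe : ∀ t : H, blockCoeff b t = subgroupBlockCoeff 𝐂[P] e (t : G)) :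
    subgroupBlockCoeff H b = subgroupBlockCoeff 𝐂[P] e := by
  rw [subgroupBlockCoeff_eq_ext0, ext0_eq_sbc hCH hbe]

/-- `g` stabilizes `b` iff it stabilizes the matching block of `C_G(P)`. -/
theorem stabilizes_iff_of_match (hM : IsPModular p M) (hH : H = P ⊔ 𝐂[P])
    {b : Set (IrrCharacter H)} (hb : IsPBlock M b) {e : Set (IrrCharacter 𝐂[P])} (he : IsPBlock M e)
    (hbe : ∀ t : H, blockCoeff b t = subgroupBlockCoeff 𝐂[P] e (t : G)) {g : G} (hg : g ∈ 𝐍[P]) :
    StabilizesBlock H b g ↔ StabilizesBlock 𝐂[P] e g := by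
  haveI := isPrime_of_isPModular hM
  have hCH : 𝐂[P] ≤ H := hH ▸ le_sup_right
  rw [stabilizes_iff_sbc_conj hb (normalizer_le_normalizer_of_eq_sup hH hg),
    stabilizes_iff_sbc_conj he (normalizer_le_normalizer_centralizer P hg), sbc_eq_sbc hCH hbe]

/-- **The pair of an induced block.** -/
theorem isBrauerPairOf_of_match (hM : IsPModular p M) (hP : IsPGroup p P) (hH : H = P ⊔ 𝐂[P])
    {b : Set (IrrCharacter H)} {B : Set (IrrCharacter G)} (hind : IsInducedBlock M H b B)
    {e : Set (IrrCharacter 𝐂[P])} (he : IsPBlock M e)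
    (hbe : ∀ t : H, blockCoeff b t = subgroupBlockCoeff 𝐂[P] e (t : G)) :
    IsBrauerPairOf p M B P e := by
  classical
  haveI := isPrime_of_isPModular hM
  have hPH : P ≤ H := hH ▸ le_sup_left
  have hCH : 𝐂[P] ≤ H := hH ▸ le_sup_right
  refine (occ_blockCoeff_iff hM hind.2.1 ⟨hP, he⟩).2 fun ξ hξ => ?_
  have hf := ext0_eq_sbc hCH hbe
  have h1 : ∀ t ∈ 𝐂[P], MemLocalIdeal M (subgroupBlockCoeff 𝐂[P] e t -
      CharIntegrality.conv (subgroupBlockCoeff 𝐂[P] e) (blockCoeff B) t) := by
    intro t ht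
    have := idemA_vanish hM hind hP hPH hCH ht
    unfold idemA at this
    rwa [hf] at this
  have hstP : ∀ u ∈ P, StabilizesBlock 𝐂[P] e u := fun u hu => stabilizes_of_mem_sup hH he (hPH hu)
  have hiP : Inv P (subgroupBlockCoeff 𝐂[P] e) := inv_subgroupBlockCoeff_of_stable _ _ he hstP
  have hiC : Inv 𝐂[P] (subgroupBlockCoeff 𝐂[P] e) := inv_subgroupBlockCoeff _ _
  have hR : ∀ x, MemLocalRing M (subgroupBlockCoeff 𝐂[P] e x) := memLocalRing_subgroupBlockCoeff _ he
  have h2 := brO_conv (P := P) hP hM hiP (inv_blockCoeff B P) hiC (inv_blockCoeff B _) hR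
    (memLocalRing_blockCoeff hind.2.1) ξ
  have h3 : brO P (subgroupBlockCoeff 𝐂[P] e) ξ = 1 := by
    have h4 := brO_sbc_self e ξ
    rw [h4, ind_of_mem hξ]
  rw [h3, one_mul] at h2
  have h5 : MemLocalIdeal M (brO P (subgroupBlockCoeff 𝐂[P] e) ξ -
      brO P (CharIntegrality.conv (subgroupBlockCoeff 𝐂[P] e) (blockCoeff B)) ξ) := by
    rw [← brO_sub]
    exact memLocalIdeal_omega_of_values 𝐂[P] (d := resC 𝐂[P] (subgroupBlockCoeff 𝐂[P] e - CharIntegrality.conv (subgroupBlockCoeff 𝐂[P] e) (blockCoeff B)))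
      (resC_isClassFunction (hiC.sub (hiC.conv (inv_blockCoeff B _)))) (fun x => h1 x x.2) ξ
  rw [h3] at h5
  have h6 := memLocalIdeal_add h5 h2
  have h7 := memLocalIdeal_neg h6
  convert h7 using 1
  ring

/-- **Brauer's criterion**: with `b` a block of `H = P C_G(P)` with defect group `P`, the block `b^G`
has defect group `P` iff no `p`-subgroup of the stabilizer `T` of `b` in `N_G(P)` leaves `H`. -/
theorem isDefectGroup_iff_of_match (hM : IsPModular p M) (hP : IsPGroup p P) (hH : H = P ⊔ 𝐂[P])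
    {b : Set (IrrCharacter H)} (hb : IsPBlock M b) (hbP : IsDefectGroup p M b (P.subgroupOf H))
    {B : Set (IrrCharacter G)} (hind : IsInducedBlock M H b B)
    {T : Subgroup G} (hT : ∀ g : G, g ∈ T ↔ g ∈ 𝐍[P] ∧ StabilizesBlock H b g) :
    IsDefectGroup p M B P ↔ ¬ p ∣ H.relIndex T := by
  classical
  haveI := isPrime_of_isPModular hM
  have hPH : P ≤ H := hH ▸ le_sup_left
  have hCH : 𝐂[P] ≤ H := hH ▸ le_sup_right
  obtain ⟨e, he, hbe⟩ := exists_block_match hM hP hH hb
  have hpair := isBrauerPairOf_of_match hM hP hH hind he hbe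
  have hTe : ∀ g : G, g ∈ T ↔ g ∈ 𝐍[P] ∧ StabilizesBlock 𝐂[P] e g := by
    intro g
    rw [hT]
    constructor
    · rintro ⟨h1, h2⟩
      exact ⟨h1, (stabilizes_iff_of_match hM hH hb he hbe h1).1 h2⟩
    · rintro ⟨h1, h2⟩
      exact ⟨h1, (stabilizes_iff_of_match hM hH hb he hbe h1).2 h2⟩
  have hHT : H ≤ T := fun x hx => (hTe x).2 ⟨le_normalizer_of_eq_sup hH hx, stabilizes_of_mem_sup hH he hx⟩
  have hTN : T ≤ 𝐍[P] := fun x hx => ((hTe x).1 hx).1
  constructor
  · intro hD
    have hmax := isMaximal_of_isDefectGroup hM hpair hD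
    obtain ⟨Y⟩ : Nonempty (Sylow p T) := inferInstance
    have hYle : (Y : Subgroup T).map T.subtype ≤ H := by
      have hYp : IsPGroup p ((Y : Subgroup T).map T.subtype) := Y.2.map _
      have h1 := le_prodSub_of_stab hM hmax hYp
        (by
          rintro _ ⟨y, -, rfl⟩
          exact hTN y.2)
        (by
          rintro _ ⟨y, -, rfl⟩
          exact ((hTe y).1 y.2).2)
      refine h1.trans ?_
      rintro s ⟨d, hd, hs⟩
      have h2 := H.mul_mem (hPH hd) (hCH hs)
      simpa using h2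
    intro hdvd
    have hle : (Y : Subgroup T) ≤ H.subgroupOf T := by
      intro y hy
      rw [Subgroup.mem_subgroupOf]
      exact hYle ⟨y, hy, rfl⟩
    have h3 : (H.subgroupOf T).index ∣ (Y : Subgroup T).index := Subgroup.index_dvd_of_le hle
    have h4 := Y.not_dvd_index
    exact h4 (hdvd.trans h3)
  · intro hpd
    refine isDefectGroup_of_maximal hM ⟨hpair, fun R g hRB hle => ?_⟩
    by_contra hRP
    have hPR : P ≤ R := le_of_subpairLE hle
    have hlt : P < R := lt_of_le_of_ne hPR (Ne.symm hRP)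
    have hRp : IsPGroup p R := hRB.1.1
    set R' := R ⊓ 𝐍[P] with hR'
    have hlt' : P < R' := lt_inf_normalizer hRp hlt
    have hR'R : R' ≤ R := inf_le_left
    obtain ⟨g', hg', hle'⟩ := exists_subpairLE hM hRB.1 hR'R
    have hn := normalSubpair_of_le hM hRB.1 hle hle' hlt'.le inf_le_right
    have hR'T : R' ≤ T := fun x hx => (hTe x).2 ⟨hx.2, hn.2.2.2.2.1 x hx⟩
    have hR'p : IsPGroup p R' := hRp.to_le hR'R
    -- `H` is normal in `T`
    have hNorm : (H.subgroupOf T).Normal := by
      apply (Subgroup.normal_subgroupOf_iff hHT).2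
      intro h k hh hk
      exact (Subgroup.mem_normalizer_iff.1 (normalizer_le_normalizer_of_eq_sup hH (hTN hk)) h).1 hh
    have hR'H : R' ≤ H := by
      intro x hx
      obtain ⟨n, hn'⟩ := IsPGroup.iff_orderOf.1 hR'p ⟨x, hx⟩
      rw [Subgroup.orderOf_mk] at hn'
      have h1 : ((⟨x, hR'T hx⟩ : T) ^ (H.subgroupOf T).index) ∈ H.subgroupOf T :=
        Subgroup.pow_index_mem _ _
      have hcop : Nat.Coprime (orderOf x) (H.subgroupOf T).index := by
        rw [hn']
        exact Nat.Coprime.pow_left _ ((Nat.Prime.coprime_iff_not_dvd hp.out).2 hpd)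
      rw [Subgroup.mem_subgroupOf] at h1
      have h2 : x ^ (H.subgroupOf T).index ∈ H := by simpa using h1
      have h3 := (Subgroup.zpowers_le.2 h2)
      have h4 : x ∈ Subgroup.zpowers (x ^ (H.subgroupOf T).index) := mem_zpowers_pow_iff.2 hcop.symm
      exact h3 h4
    -- the pair lifts to `H`
    set Rh := R'.subgroupOf H with hRh
    have hRmap : Rh.map H.subtype = R' := Subgroup.map_subgroupOf_eq_of_le hR'H
    have hQR : P ≤ Rh.map H.subtype := hRmap ▸ hlt'.le
    have m : CenMatch Rh R' := hRmap ▸ cenMatch_nor hCH Rh hQR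
    have hRhp : IsPGroup p Rh := IsPGroup.comap_of_injective hR'p _ Subtype.val_injective
    have hpp := exists_pair_hat hM hb hbe hRhp m hn
    obtain ⟨D, hD, hRD⟩ := exists_defect_ge hM hpp
    haveI hnP : (P.subgroupOf H).Normal := by
      apply (Subgroup.normal_subgroupOf_iff hPH).2
      intro h k hh hk
      exact (Subgroup.mem_normalizer_iff.1 (le_normalizer_of_eq_sup hH hk) h).1 hh
    have hPhp : IsPGroup p (P.subgroupOf H) := IsPGroup.comap_of_injective hP _ Subtype.val_injective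
    have h1 : P.subgroupOf H ≤ D := BlkFirst.normal_le_defect hM hnP hPhp hb hD
    have h2 := card_isDefectGroup hM hb hD
    have h3 := card_isDefectGroup hM hb hbP
    have h4 : P.subgroupOf H = D := Subgroup.eq_of_le_of_card_ge h1 (by rw [h2, h3])
    have h5 : R' ≤ P := by
      intro x hx
      have h6 : (⟨x, hR'H hx⟩ : H) ∈ D := hRD (by
        rw [hRh, Subgroup.mem_subgroupOf]
        exact hx)
      rw [← h4, Subgroup.mem_subgroupOf] at h6
      exact h6
    exact absurd h5 (not_le_of_gt hlt')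

end Cfsg.Agent.Lib.CentricInd
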