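import Cfsg.Agent.Lib.Chev.Core
import Cfsg.Agent.Lib.Chev.RankOne

/-!
# The elements `n_i` are monomial on root vectors

A table check of the columns of `n_i = n_{p_i}(1)`, for all types: `e_s ↦ η_s e_{w_i s}` and
`h_j ↦ h_j - A_{j, p_i} h_i`.
-/

namespace Cfsg.Agent.Lib.ChevMonoN

open Cfsg.Lie Cfsg.Agent.Lib.Chev Matrix

/-- The coefficient at the flat index `c` of a column. -/
noncomputable def coefC (L : List (ℕ × ℤ)) (c : ℕ) : ℤ :=
  List.rec (motive := fun _ => ℤ) (Int.ofNat 0)
    (fun e _ ih => Bool.rec (motive := fun _ => ℤ) ih (Int.add e.2 ih) (Nat.beq e.1 c)) L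

/-- All entries of a column have index below `n`. -/
noncomputable def allLt (L : List (ℕ × ℤ)) (n : ℕ) : Bool :=
  List.rec (motive := fun _ => Bool) true (fun e _ ih => band (Nat.blt e.1 n) ih) L

/-- An integer from a Boolean. -/
noncomputable def ifBeq (a b : ℕ) (u : ℤ) : ℤ :=
  Bool.rec (motive := fun _ => ℤ) (Int.ofNat 0) u (Nat.beq a b)

/-- The column of `h_j`. -/
noncomputable def checkH (T : Tabs) (D : ChevalleyDatum) (i j : ℕ) : Bool :=
  band (allLt (T.ntOf i j) T.rank)
    (allBelow (fun c => intIsZero (Int.sub (coefC (T.ntOf i j) c)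
      (Int.sub (ifBeq c j (Int.ofNat 1)) (ifBeq c i (D.cartan j (D.simple i)))))) T.rank)

/-- The column of `e_s`. -/
noncomputable def checkE (T : Tabs) (X : Extra) (i s : ℕ) : Bool :=
  List.rec (motive := fun _ => Bool) false
    (fun e l _ => band (isNil l)
      (band (Nat.beq e.1 (T.rank + X.wf i s)) (intIsZero (Int.sub e.2 (X.eta i s)))))
    (T.ntOf i (T.rank + s))

/-- All columns of all `n_i`. -/
noncomputable def checkMono (T : Tabs) (X : Extra) (D : ChevalleyDatum) : Bool :=
  allBelow (fun i => band (allBelow (fun j => checkH T D i j) T.rank)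
    (allBelow (fun s => checkE T X i s) T.nroots)) T.rank

theorem mono_G2 : checkMono TabG2.T TabG2.X chevG2 = true := by decide +kernel
theorem mono_B2 : checkMono TabB2.T TabB2.X chevB2 = true := by decide +kernel
theorem mono_D4 : checkMono TabD4.T TabD4.X chevD4 = true := by decide +kernel
theorem mono_F4 : checkMono TabF4.T TabF4.X chevF4 = true := by decide +kernel
theorem mono_E6 : checkMono TabE6.T TabE6.X chevE6 = true := by decide +kernel
theorem mono_E7 : checkMono TabE7.T TabE7.X chevE7 = true := by decide +kernel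
theorem mono_E8 : checkMono TabE8.T TabE8.X chevE8 = true := by decide +kernel

theorem exists_full_mono (D : ChevalleyDatum)
    (hD : D ∈ [chevG2, chevB2, chevD4, chevF4, chevE6, chevE7, chevE8]) :
    ∃ T X R, Full T X R D ∧ checkMono T X D = true := by
  simp only [List.mem_cons, List.not_mem_nil, or_false] at hD
  rcases hD with rfl | rfl | rfl | rfl | rfl | rfl | rfl
  · exact ⟨_, _, _, ⟨RelG2.checks, RootG2.checks⟩, mono_G2⟩
  · exact ⟨_, _, _, ⟨RelB2.checks, RootB2.checks⟩, mono_B2⟩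
  · exact ⟨_, _, _, ⟨RelD4.checks, RootD4.checks⟩, mono_D4⟩
  · exact ⟨_, _, _, ⟨RelF4.checks, RootF4.checks⟩, mono_F4⟩
  · exact ⟨_, _, _, ⟨RelE6.checks, RootE6.checks⟩, mono_E6⟩
  · exact ⟨_, _, _, ⟨RelE7.checks, RootE7.checks⟩, mono_E7⟩
  · exact ⟨_, _, _, ⟨RelE8.checks, RootE8.checks⟩, mono_E8⟩

section
variable {F : Type*} [Field F] {T : Tabs} {X : Extra} {R : RootTab} {D : ChevalleyDatum}

theorem nMat_entry (hS : T.Sound D F) {i : ℕ} (hi : i < D.rank) (row col : D.Idx) :
    D.nMat F (D.simple i) 1 row col = evalC D (T.ntOf i (flat D col)) row := by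
  have h := congrFun (hS.nt_ok i (flat D col) hi) row
  rw [bv_flat, Matrix.mulVec_single_one] at h
  simpa using h

theorem evalC_cons (e : ℕ × ℤ) (L : List (ℕ × ℤ)) :
    (evalC D (e :: L) : D.Idx → F) = ((e.2 : ℤ) : F) • (bv D e.1 : D.Idx → F) + evalC D L := by
  simp [evalC]

theorem evalC_nil : (evalC D [] : D.Idx → F) = 0 := rfl

theorem evalC_inl (L : List (ℕ × ℤ)) (c : Fin D.rank) :
    (evalC D L : D.Idx → F) (Sum.inl c) = ((coefC L c : ℤ) : F) := by
  induction L with
  | nil => simp [evalC_nil, coefC]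
  | cons e L ih =>
    rw [evalC_cons, Pi.add_apply, ih]
    show _ = ((Bool.rec (motive := fun _ => ℤ) (coefC L c) (Int.add e.2 (coefC L c))
      (Nat.beq e.1 c) : ℤ) : F)
    by_cases h : e.1 = c
    · rw [Trie.nat_beq_true h]
      simp only [Pi.smul_apply, bv, flat_inl, smul_eq_mul, h, if_true, mul_one]
      show _ = (((e.2 + coefC L c : ℤ)) : F)
      push_cast
      rfl
    · rw [Trie.nat_beq_false h]
      have h' : ¬ ((c : ℕ) = e.1) := fun h'' => h h''.symm
      simp [bv, flat_inl, h']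

theorem evalC_inr (L : List (ℕ × ℤ)) (hL : allLt L D.rank = true) (s : Fin D.nroots) :
    (evalC D L : D.Idx → F) (Sum.inr s) = 0 := by
  induction L with
  | nil => simp [evalC_nil]
  | cons e L ih =>
    have h1 : band (Nat.blt e.1 D.rank) (allLt L D.rank) = true := hL
    obtain ⟨h2, h3⟩ := band_spec h1
    have h4 : e.1 < D.rank := Nat.le_of_ble_eq_true h2
    rw [evalC_cons, Pi.add_apply, ih h3]
    have h5 : ¬ (D.rank + (s : ℕ) = e.1) := by omega
    simp [bv, flat_inr, h5]

theorem ifBeq_eq (a b : ℕ) (u : ℤ) : ifBeq a b u = if a = b then u else 0 := by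
  by_cases h : a = b
  · rw [if_pos h]; unfold ifBeq; rw [Trie.nat_beq_true h]
  · rw [if_neg h]; unfold ifBeq; rw [Trie.nat_beq_false h]; rfl

/-- The column of `h_j` under `n_i`. -/
theorem nMat_h (hS : T.Sound D F) (hr : T.rank = D.rank) (hm : checkMono T X D = true) {i : ℕ}
    (hi : i < D.rank) (j : Fin D.rank) (row : D.Idx) :
    D.nMat F (D.simple i) 1 row (Sum.inl j) = Sum.elim
      (fun j' : Fin D.rank => (if j' = j then (1 : F) else 0) -
        (if (j' : ℕ) = i then ((D.cartan j (D.simple i) : ℤ) : F) else 0))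
      (fun _ => (0 : F)) row := by
  rw [nMat_entry hS hi, flat_inl]
  have h0 := allBelow_spec _ _ hm i (by rw [hr]; exact hi)
  obtain ⟨h1, _⟩ := band_spec h0
  have h2 := allBelow_spec _ _ h1 j (by rw [hr]; exact j.2)
  obtain ⟨h3, h4⟩ := band_spec h2
  rw [hr] at h3 h4
  cases row with
  | inl c =>
    rw [evalC_inl]
    have h5 := allBelow_spec _ _ h4 c c.2
    have h6 := (intIsZero_iff _).1 h5
    have h7 : coefC (T.ntOf i j) c = ifBeq c j (Int.ofNat 1) - ifBeq c i (D.cartan j (D.simple i)) := by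
      have : coefC (T.ntOf i j) c - (ifBeq c j (Int.ofNat 1) - ifBeq c i (D.cartan j (D.simple i))) = 0 := h6
      omega
    rw [h7, ifBeq_eq, ifBeq_eq]
    simp only [Sum.elim_inl]
    by_cases h8 : (c : ℕ) = j
    · have h9 : c = j := Fin.ext h8
      rw [if_pos h8, if_pos h9]
      by_cases h10 : (c : ℕ) = i
      · rw [if_pos h10, if_pos h10]; push_cast; simp
      · rw [if_neg h10, if_neg h10]; simp
    · have h9 : c ≠ j := fun h => h8 (congrArg _ h)
      rw [if_neg h8, if_neg h9]
      by_cases h10 : (c : ℕ) = i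
      · rw [if_pos h10, if_pos h10]; push_cast; simp
      · rw [if_neg h10, if_neg h10]; simp
  | inr s =>
    rw [evalC_inr _ h3]
    rfl

/-- The column of `e_s` under `n_i`. -/
theorem nMat_e (hS : T.Sound D F) (hr : T.rank = D.rank) (hn : T.nroots = D.nroots)
    (hm : checkMono T X D = true) {i : ℕ} (hi : i < D.rank) (s : Fin D.nroots) (row : D.Idx) :
    D.nMat F (D.simple i) 1 row (Sum.inr s) = Sum.elim
      (fun _ => (0 : F))
      (fun s' : Fin D.nroots => if (s' : ℕ) = X.wf i s then ((X.eta i s : ℤ) : F) else 0) row := by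
  rw [nMat_entry hS hi, flat_inr]
  have h0 := allBelow_spec _ _ hm i (by rw [hr]; exact hi)
  obtain ⟨_, h1⟩ := band_spec h0
  have h2 := allBelow_spec _ _ h1 s (by rw [hn]; exact s.2)
  unfold checkE at h2
  rw [hr] at h2
  cases hL : T.ntOf i (D.rank + s) with
  | nil =>
    rw [hL] at h2
    exact absurd h2 (by simp)
  | cons e l =>
    rw [hL] at h2
    have h3 : band (isNil l) (band (Nat.beq e.1 (D.rank + X.wf i s))
        (intIsZero (Int.sub e.2 (X.eta i s)))) = true := h2
    obtain ⟨h4, h5⟩ := band_spec h3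
    obtain ⟨h6, h7⟩ := band_spec h5
    have h8 : l = [] := by
      cases l with
      | nil => rfl
      | cons a l => exact absurd h4 (by simp [isNil])
    have h9 : e.1 = D.rank + X.wf i s := Nat.eq_of_beq_eq_true h6
    have h10 : e.2 = X.eta i s := by
      have : e.2 - X.eta i s = 0 := (intIsZero_iff _).1 h7
      omega
    subst h8
    rw [evalC_cons, evalC_nil, add_zero, Pi.smul_apply, h9, h10]
    cases row with
    | inl c =>
      have : ¬ ((c : ℕ) = D.rank + X.wf i s) := by have := c.2; omega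
      simp [bv, flat_inl, this]
    | inr s' =>
      by_cases h11 : (s' : ℕ) = X.wf i s
      · simp [bv, flat_inr, h11]
      · have : ¬ (D.rank + (s' : ℕ) = D.rank + X.wf i s) := by omega
        simp [bv, flat_inr, h11]

end

/-- `η_s η_{w s} = (-1)^{A_{i,s}}`, over the rationals by the action of `n_i²`. -/
theorem eta_mul_wf {T : Tabs} {X : Extra} {R : RootTab} {D : ChevalleyDatum} (hF : Full T X R D)
    {i s : ℕ} (hi : i < D.rank) (hs : s < D.nroots) :
    X.eta i s * X.eta i (X.wf i s) = (-1) ^ (D.cartan i s).natAbs := by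
  have hw := hF.wf_lt hi hs
  -- `n_i² x_s(1) n_i⁻² = x_s(η_s η_{ws})`
  have h1 := hF.nS_conj_xG (F := ℚ) hi hs 1
  have h2 := hF.nS_conj_xG (F := ℚ) hi hw (((X.eta i s : ℤ) : ℚ) * 1)
  rw [hF.wf_wf hi hs] at h2
  rw [← h1] at h2
  -- the square of `n_i` is `h_i(-1)`
  have h3 := hF.nS_sq_eq (F := ℚ) hi
  have h4 : hF.nS i * hF.nS i * hF.c.xG s (1 : ℚ) * (hF.nS i * hF.nS i)⁻¹ =
      hF.c.xG s (((X.eta i (X.wf i s) : ℤ) : ℚ) * (((X.eta i s : ℤ) : ℚ) * 1)) := by
    rw [← h2]
    group
  rw [h3] at h4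
  rw [hF.hS_apply, hF.tor_conj_xG _ hs, hF.mulSingle_chiT] at h4
  have h6 := hF.xG_param_inj hs h4
  have h7 : (((-1 : ℚˣ) ^ (D.cartan i s) : ℚˣ) : ℚ) = (-1 : ℚ) ^ (D.cartan i s).natAbs := by
    generalize D.cartan i s = a
    rw [Units.val_zpow_eq_zpow_val, Units.val_neg, Units.val_one]
    rcases Int.natAbs_eq a with h | h
    · generalize a.natAbs = n at h
      subst h
      simp
    · generalize a.natAbs = n at h
      subst h
      rcases neg_one_pow_eq_or ℚ n with h | h <;> simp [h]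
  have h6' : ((-1 : ℚ) ^ (D.cartan i s).natAbs) =
      ((X.eta i (X.wf i s) : ℤ) : ℚ) * ((X.eta i s : ℤ) : ℚ) := by
    rw [← h7]
    have : (⟨i, hi⟩ : Fin D.rank).val = i := rfl
    rw [this] at h6
    linear_combination h6
  have h8 : ((X.eta i s * X.eta i (X.wf i s) : ℤ) : ℚ) = (((-1) ^ (D.cartan i s).natAbs : ℤ) : ℚ) := by
    push_cast
    rw [h6']
    ring
  exact_mod_cast h8

end Cfsg.Agent.Lib.ChevMonoN
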