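import Mathlib
import Cfsg.Agent.Lib.ExtPrim2

/-!
Elements of a group acting on an elementary abelian 2-group, measured through their commutator subgroups.
-/

set_option autoImplicit false
set_option linter.style.haveILetI false

namespace Cfsg.Agent.Lib.CmRankTwo

variable {A : Type*} [CommGroup A] {G : Type*} [Group G] (φ : G →* MulAut A)

/-- `a ↦ g a * a⁻¹`. -/
def dl (g : G) : A →* A where
  toFun a := φ g a * a⁻¹
  map_one' := by simp
  map_mul' a b := by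
    simp only [map_mul, mul_inv]
    exact mul_mul_mul_comm _ _ _ _

/-- The commutator subgroup `[A, g]`. -/
def Cm (g : G) : Subgroup A := (dl φ g).range

@[simp] theorem dl_apply (g : G) (a : A) : dl φ g a = φ g a * a⁻¹ := rfl

theorem dl_mem (g : G) (a : A) : φ g a * a⁻¹ ∈ Cm φ g := ⟨a, rfl⟩

theorem mem_Cm {g : G} {c : A} : c ∈ Cm φ g ↔ ∃ a, φ g a * a⁻¹ = c := Iff.rfl

theorem Cm_one : Cm φ 1 = ⊥ := by
  rw [eq_bot_iff]
  rintro _ ⟨a, rfl⟩
  simp

theorem Cm_mul_le (g h : G) : Cm φ (g * h) ≤ Cm φ g ⊔ Cm φ h := by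
  rintro _ ⟨a, rfl⟩
  have : dl φ (g * h) a = (φ g (φ h a) * (φ h a)⁻¹) * (φ h a * a⁻¹) := by
    simp [map_mul]
  rw [this]
  exact Subgroup.mul_mem_sup (dl_mem φ g _) (dl_mem φ h _)

theorem Cm_inv_le (g : G) : Cm φ g⁻¹ ≤ Cm φ g := by
  rintro _ ⟨a, rfl⟩
  have : dl φ g⁻¹ a = (φ g ((φ g)⁻¹ a) * ((φ g)⁻¹ a)⁻¹)⁻¹ := by
    simp [map_inv]
  rw [this]
  exact inv_mem (dl_mem φ g _)

theorem Cm_inv (g : G) : Cm φ g⁻¹ = Cm φ g :=
  le_antisymm (Cm_inv_le φ g) (by simpa using Cm_inv_le φ g⁻¹)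

/-- The elements whose commutator lies in a fixed subgroup form a subgroup. -/
def CmLe (U : Subgroup A) : Subgroup G where
  carrier := {t | Cm φ t ≤ U}
  mul_mem' {a b} ha hb := (Cm_mul_le φ a b).trans (sup_le ha hb)
  one_mem' := by
    change Cm φ 1 ≤ U
    rw [Cm_one]; exact bot_le
  inv_mem' {a} ha := by
    change Cm φ a⁻¹ ≤ U
    rw [Cm_inv]; exact ha

theorem mem_CmLe {U : Subgroup A} {t : G} : t ∈ CmLe φ U ↔ Cm φ t ≤ U := Iff.rfl

theorem Cm_le_of_mem_closure {U : Subgroup A} {X : Set G} (h : ∀ s ∈ X, Cm φ s ≤ U) {t : G}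
    (ht : t ∈ Subgroup.closure X) : Cm φ t ≤ U := by
  have : Subgroup.closure X ≤ CmLe φ U := (Subgroup.closure_le _).2 h
  exact this ht

theorem Cm_pow_le (g : G) (n : ℕ) : Cm φ (g ^ n) ≤ Cm φ g := by
  induction n with
  | zero =>
    rw [pow_zero, Cm_one]
    exact bot_le
  | succ n ih =>
    rw [pow_succ]
    exact (Cm_mul_le φ _ _).trans (sup_le ih le_rfl)

theorem Cm_zpow_le (g : G) (k : ℤ) : Cm φ (g ^ k) ≤ Cm φ g :=
  Subgroup.zpow_mem (CmLe φ (Cm φ g)) (show g ∈ CmLe φ (Cm φ g) from le_refl (Cm φ g)) k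

theorem Cm_congr {g h : G} (e : φ g = φ h) : Cm φ g = Cm φ h := by
  ext c
  simp only [mem_Cm, e]

/-- Conjugation. -/
theorem Cm_conj (e g : G) : Cm φ (e * g * e⁻¹) = (Cm φ g).map (φ e).toMonoidHom := by
  ext c
  constructor
  · rintro ⟨a, rfl⟩
    refine ⟨dl φ g ((φ e)⁻¹ a), ⟨_, rfl⟩, ?_⟩
    simp [map_mul, map_inv]
  · rintro ⟨_, ⟨a, rfl⟩, rfl⟩
    refine ⟨φ e a, ?_⟩
    simp [map_mul, map_inv]

theorem card_Cm_conj [Finite A] (e g : G) : Nat.card (Cm φ (e * g * e⁻¹)) = Nat.card (Cm φ g) := by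
  rw [Cm_conj]
  exact Subgroup.card_map_of_injective (φ e).injective

/-- Iterating an element whose commutator is fixed. -/
theorem pow_apply_of_fix {g : G} {a : A} (h : φ g (φ g a * a⁻¹) = φ g a * a⁻¹) (n : ℕ) :
    ((φ g) ^ n) a = (φ g a * a⁻¹) ^ n * a := by
  induction n with
  | zero => simp
  | succ n ih =>
    rw [pow_succ', MulAut.mul_apply, ih, map_mul, map_pow, h, pow_succ]
    simp only [mul_assoc]
    congr 2
    simp

variable {φ}

/-- An element of odd order does not fix a non-trivial element of its commutator. -/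
theorem dl_eq_one_of_fix (hA : ∀ a : A, a ^ 2 = 1) {g : G} {n : ℕ} (hn : Odd n) (hg : (φ g) ^ n = 1) {a : A}
    (h : φ g (φ g a * a⁻¹) = φ g a * a⁻¹) : φ g a * a⁻¹ = 1 := by
  have h1 := pow_apply_of_fix φ h n
  rw [hg] at h1
  have h2 : (φ g a * a⁻¹) ^ n = 1 := by
    have : (1 : MulAut A) a = a := rfl
    rw [this] at h1
    exact (mul_eq_right.mp h1.symm)
  obtain ⟨k, rfl⟩ := hn
  rw [pow_succ, pow_mul, hA, one_pow, one_mul] at h2
  exact h2

/-- Fixed-point-freeness on the commutator. -/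
theorem eq_one_of_mem_Cm_fix (hA : ∀ a : A, a ^ 2 = 1) {g : G} {n : ℕ} (hn : Odd n) (hg : (φ g) ^ n = 1) {c : A}
    (hc : c ∈ Cm φ g) (h : φ g c = c) : c = 1 := by
  obtain ⟨a, rfl⟩ := hc
  exact dl_eq_one_of_fix hA hn hg h

/-- An element of odd order fixing its commutator pointwise acts trivially. -/
theorem eq_one_of_fix_Cm (hA : ∀ a : A, a ^ 2 = 1) {g : G} {n : ℕ} (hn : Odd n) (hg : (φ g) ^ n = 1)
    (h : ∀ c ∈ Cm φ g, φ g c = c) : φ g = 1 := by
  apply MulEquiv.ext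
  intro a
  have := dl_eq_one_of_fix hA hn hg (h _ (dl_mem φ g a))
  change φ g a = a
  exact mul_inv_eq_one.mp this

theorem Cm_eq_bot_iff {g : G} : Cm φ g = ⊥ ↔ φ g = 1 := by
  constructor
  · intro h
    apply MulEquiv.ext
    intro a
    have : φ g a * a⁻¹ ∈ Cm φ g := dl_mem φ g a
    rw [h, Subgroup.mem_bot] at this
    exact mul_inv_eq_one.mp this
  · intro h
    rw [eq_bot_iff]
    rintro _ ⟨a, rfl⟩
    simp [h]

/-- An invariant non-trivial subgroup of the commutator of order four is everything. -/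
theorem eq_of_invariant [Finite A] (hA : ∀ a : A, a ^ 2 = 1) {x : G} (h3 : (φ x) ^ 3 = 1)
    (h4 : Nat.card (Cm φ x) = 4) {D : Subgroup A} (hD : D ≤ Cm φ x) (hinv : ∀ d ∈ D, φ x d ∈ D)
    (hne : D ≠ ⊥) : D = Cm φ x := by
  have hdvd : Nat.card D ∣ 4 := h4 ▸ Subgroup.card_dvd_of_le hD
  have hle : Nat.card D ≤ 4 := Nat.le_of_dvd (by norm_num) hdvd
  have hne1 : Nat.card D ≠ 1 := fun h => hne (Subgroup.card_eq_one.mp h)
  have hcase : Nat.card D = 2 ∨ Nat.card D = 4 := by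
    have h0 : Nat.card D ≠ 0 := Nat.card_pos.ne'
    interval_cases h : Nat.card D <;> simp_all
  rcases hcase with h2 | h4'
  · exfalso
    obtain ⟨⟨d, hd⟩, hd1'⟩ := Subgroup.ne_bot_iff_exists_ne_one.mp hne
    have hd1 : d ≠ 1 := fun e => hd1' (Subtype.ext e)
    obtain ⟨y, -, hy⟩ := (Nat.card_eq_two_iff' (1 : D)).mp h2
    have h5 : (⟨d, hd⟩ : D) = y := hy _ (fun e => hd1 (congrArg Subtype.val e))
    have h6 : (⟨φ x d, hinv d hd⟩ : D) = y := hy _ (fun e => hd1 (by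
      have : φ x d = 1 := congrArg Subtype.val e
      simpa using this))
    have h7 : φ x d = d := by
      have := h6.trans h5.symm
      exact congrArg Subtype.val this
    exact hd1 (eq_one_of_mem_Cm_fix hA (n := 3) (by decide) h3 (hD hd) h7)
  · exact Subgroup.eq_of_le_of_card_ge hD (by rw [h4, h4'])


theorem Cm_invariant (g : G) {c : A} (hc : c ∈ Cm φ g) : φ g c ∈ Cm φ g := by
  have : φ g c = (φ g c * c⁻¹) * c := by simp
  rw [this]
  exact mul_mem (dl_mem φ g c) hc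

theorem apply_mem_of_Cm_le {U : Subgroup A} {g : G} (h : Cm φ g ≤ U) {c : A} (hc : c ∈ U) : φ g c ∈ U := by
  have : φ g c = (φ g c * c⁻¹) * c := by simp
  rw [this]
  exact mul_mem (h (dl_mem φ g c)) hc

/-- The commutator map is onto on the commutator. -/
theorem dl_surj [Finite A] (hA : ∀ a : A, a ^ 2 = 1) {g : G} {n : ℕ} (hn : Odd n) (hg : (φ g) ^ n = 1) {c : A}
    (hc : c ∈ Cm φ g) : ∃ c' ∈ Cm φ g, φ g c' * c'⁻¹ = c := by
  let F : Cm φ g → Cm φ g := fun c' => ⟨φ g c'.1 * c'.1⁻¹, dl_mem φ g c'.1⟩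
  have hinj : Function.Injective F := by
    intro a b hab
    have h1 : φ g a.1 * a.1⁻¹ = φ g b.1 * b.1⁻¹ := congrArg Subtype.val hab
    have h2 : φ g (a.1 * b.1⁻¹) = a.1 * b.1⁻¹ := by
      rw [map_mul, map_inv]
      have h3 : φ g a.1 = (φ g b.1 * b.1⁻¹) * a.1 := by rw [← h1]; simp
      rw [h3, mul_inv_eq_iff_eq_mul]
      ac_rfl
    have h4 := eq_one_of_mem_Cm_fix hA hn hg (mul_mem a.2 (inv_mem b.2)) h2
    exact Subtype.ext (mul_inv_eq_one.mp h4)
  obtain ⟨c', hc'⟩ := (Finite.injective_iff_surjective.mp hinj) ⟨c, hc⟩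
  exact ⟨c'.1, c'.2, congrArg Subtype.val hc'⟩

theorem relIndex_mul_card {H K : Subgroup A} [Finite A] (h : H ≤ K) : H.relIndex K * Nat.card H = Nat.card K := by
  have h1 := Subgroup.card_mul_index (H.subgroupOf K)
  have h2 : Nat.card (H.subgroupOf K) = Nat.card H :=
    Nat.card_congr (Subgroup.subgroupOfEquivOfLe h).toEquiv
  rw [h2] at h1
  rw [mul_comm]
  exact h1

/-- The order of a join in a commutative group. -/
theorem card_sup_mul_card_inf [Finite A] (H K : Subgroup A) :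
    Nat.card ↥(H ⊔ K) * Nat.card ↥(H ⊓ K) = Nat.card H * Nat.card K := by
  have h1 : K.relIndex (H ⊔ K) * Nat.card K = Nat.card ↥(H ⊔ K) :=
    relIndex_mul_card le_sup_right
  have h2 : K.relIndex (H ⊔ K) = K.relIndex H := Subgroup.relIndex_sup_right H K
  have h3 : (H ⊓ K).relIndex H * Nat.card ↥(H ⊓ K) = Nat.card H :=
    relIndex_mul_card inf_le_left
  have h4 : (H ⊓ K).relIndex H = K.relIndex H := by
    rw [inf_comm]; exact Subgroup.inf_relIndex_right K H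
  rw [← h1, h2, ← h3, h4]
  ring

/-- Bounding a group acting with a small commutator. -/
theorem card_map_dvd [Finite A] (hA : ∀ a : A, a ^ 2 = 1) (T : Subgroup G)
    (hodd : ∀ t ∈ T, ∃ n, Odd n ∧ (φ t) ^ n = 1) (U : Subgroup A) (hU : Nat.card U ∣ 16)
    (hT : ∀ t ∈ T, Cm φ t ≤ U) : Nat.card (T.map φ) ∣ 20160 := by
  classical
  haveI : Fact (Nat.Prime 2) := ⟨Nat.prime_two⟩
  have hmaps : ∀ α ∈ T.map φ, ∀ u ∈ U, α u ∈ U := by
    rintro _ ⟨t, ht, rfl⟩ u hu
    exact apply_mem_of_Cm_le (hT t ht) hu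
  let ρ : ↥(T.map φ) →* MulAut ↥U := MonoidHom.mk' (fun α =>
    { toFun := fun u => ⟨α.1 u.1, hmaps _ α.2 _ u.2⟩
      invFun := fun u => ⟨α.1⁻¹ u.1, hmaps _ (inv_mem α.2) _ u.2⟩
      left_inv := fun u => Subtype.ext (by simp)
      right_inv := fun u => Subtype.ext (by simp)
      map_mul' := fun a b => Subtype.ext (by simp) }) (by
    intro a b
    ext u
    rfl)
  have hρ : ∀ (α : ↥(T.map φ)) (u : ↥U), ((ρ α u : ↥U) : A) = α.1 u.1 := fun _ _ => rfl
  obtain ⟨e, he⟩ : ∃ e, Nat.card U = 2 ^ e ∧ e ≤ 4 := by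
    obtain ⟨e, he1, he2⟩ := (Nat.dvd_prime_pow Nat.prime_two).mp (show Nat.card U ∣ 2 ^ 4 from hU)
    exact ⟨e, he2, he1⟩
  obtain ⟨ψ, hψ⟩ := Cfsg.Agent.Lib.ExtPrim2.exists_GL_hom (H := ↥(T.map φ)) (M := ↥U) 2 e
    (fun x => Subtype.ext (by simpa using hA x.1)) he.1 ρ
  have hinj : Function.Injective ψ := by
    rw [injective_iff_map_eq_one]
    rintro ⟨_, t, ht, rfl⟩ h1
    have h2 := (hψ _).mp h1
    obtain ⟨n, hn, hn1⟩ := hodd t ht
    have h3 : φ t = 1 := eq_one_of_fix_Cm hA hn hn1 (fun c hc => by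
      have := congrArg Subtype.val (h2 ⟨c, hT t ht hc⟩)
      simpa [hρ] using this)
    apply Subtype.ext
    simpa using h3
  have h1 : Nat.card ↥(T.map φ) ∣ Nat.card (Matrix.GeneralLinearGroup (Fin e) (ZMod 2)) :=
    Subgroup.card_dvd_of_injective ψ hinj
  refine h1.trans ?_
  rw [Matrix.card_GL_field]
  obtain ⟨-, he4⟩ := he
  interval_cases e <;> simp [Fin.prod_univ_succ, ZMod.card]

/-- An element of order `7` with small commutator moves exactly eight elements' worth. -/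
theorem card_Cm_eq_eight [Finite A] (hA : ∀ a : A, a ^ 2 = 1) {u : G} (hu : (φ u) ^ 7 = 1) (hne : φ u ≠ 1)
    (hdvd : Nat.card (Cm φ u) ∣ 16) : Nat.card (Cm φ u) = 8 := by
  classical
  haveI : Fact (Nat.Prime 7) := ⟨by norm_num⟩
  set W := Cm φ u with hW
  let σ : Equiv.Perm ↥W :=
    { toFun := fun c => ⟨φ u c.1, Cm_invariant u c.2⟩
      invFun := fun c => ⟨((φ u) ^ 6) c.1, by
        have h : ∀ k : ℕ, ∀ c ∈ W, ((φ u) ^ k) c ∈ W := by
          intro k
          induction k with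
          | zero => intro c hc; simpa using hc
          | succ k ih =>
            intro c hc
            rw [pow_succ', MulAut.mul_apply]
            exact Cm_invariant u (ih c hc)
        exact h 6 c.1 c.2⟩
      left_inv := fun c => Subtype.ext (by
        have : ((φ u) ^ 6 * φ u) c.1 = c.1 := by
          rw [← pow_succ, hu]; rfl
        exact this)
      right_inv := fun c => Subtype.ext (by
        have : (φ u * (φ u) ^ 6) c.1 = c.1 := by
          rw [← pow_succ', hu]; rfl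
        exact this) }
  have hσ : ∀ c : ↥W, (σ c : A) = φ u c.1 := fun _ => rfl
  have hσ7 : σ ^ 7 = 1 := by
    ext c
    have h : ∀ k : ℕ, (((σ ^ k) c : ↥W) : A) = ((φ u) ^ k) c.1 := by
      intro k
      induction k with
      | zero => rfl
      | succ k ih =>
        rw [pow_succ', Equiv.Perm.mul_apply, hσ, ih, pow_succ', MulAut.mul_apply]
    rw [h, hu]
    rfl
  have hP : IsPGroup 7 (Subgroup.zpowers σ) := by
    apply IsPGroup.of_card (n := 1)
    rw [Nat.card_zpowers, pow_one]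
    have := orderOf_dvd_of_pow_eq_one hσ7
    rcases (Nat.dvd_prime (by norm_num)).mp this with h | h
    · exfalso
      rw [orderOf_eq_one_iff] at h
      apply hne
      apply eq_one_of_fix_Cm hA (n := 7) (by decide) hu
      intro c hc
      have := congrArg (fun τ : Equiv.Perm ↥W => ((τ ⟨c, hc⟩ : ↥W) : A)) h
      simpa [hσ] using this
    · exact h
  have hmod := hP.card_modEq_card_fixedPoints ↥W
  have hfix : Nat.card (MulAction.fixedPoints (Subgroup.zpowers σ) ↥W) = 1 := by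
    rw [Nat.card_eq_one_iff_unique]
    refine ⟨⟨fun a b => ?_⟩, ⟨⟨1, ?_⟩⟩⟩
    · have key : ∀ a : MulAction.fixedPoints (Subgroup.zpowers σ) ↥W, a.1 = 1 := by
        intro a
        have h1 := a.2 ⟨σ, Subgroup.mem_zpowers σ⟩
        have h2 : σ a.1 = a.1 := h1
        have h3 : φ u a.1.1 = a.1.1 := congrArg Subtype.val h2
        exact Subtype.ext (eq_one_of_mem_Cm_fix hA (n := 7) (by decide) hu a.1.2 h3)
      exact Subtype.ext ((key a).trans (key b).symm)
    · rintro ⟨τ, k, rfl⟩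
      have : ∀ k : ℤ, (σ ^ k) 1 = 1 := by
        intro k
        have h0 : σ 1 = 1 := Subtype.ext (by simp [hσ])
        have hfixed : Function.IsFixedPt (⇑σ) 1 := h0
        exact (Equiv.Perm.zpow_apply_eq_self_of_apply_eq_self h0 k)
      exact this k
  rw [hfix] at hmod
  obtain ⟨i, hi, hi2⟩ := (Nat.dvd_prime_pow Nat.prime_two).mp (show Nat.card W ∣ 2 ^ 4 from hdvd)
  have hW1 : Nat.card W ≠ 1 := by
    intro h
    have h2 : W = ⊥ := Subgroup.card_eq_one.mp h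
    exact hne (Cm_eq_bot_iff.mp h2)
  rw [hi2] at hmod hW1 ⊢
  interval_cases i
  · simp at hW1
  · exact absurd hmod (by decide)
  · exact absurd hmod (by decide)
  · rfl
  · exact absurd hmod (by decide)

/-- Commuting elements of order three with commutators of order four. -/
theorem Cm_eq_of_commute [Finite A] (hA : ∀ a : A, a ^ 2 = 1) {x y w : G} (hx3 : (φ x) ^ 3 = 1) (hy3 : (φ y) ^ 3 = 1)
    (hcx : Nat.card (Cm φ x) = 4) (hcy : Nat.card (Cm φ y) = 4) (hcw : Nat.card (Cm φ w) = 4)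
    (hcomm : φ x * φ y = φ y * φ x) (hw : φ w = (φ x * φ y)⁻¹) : Cm φ y = Cm φ x := by
  classical
  by_contra hne
  have hodd3 : Odd 3 := by decide
  have hinvxy : ∀ c ∈ Cm φ y, φ x c ∈ Cm φ y := by
    rintro _ ⟨a, rfl⟩
    refine ⟨φ x a, ?_⟩
    have : φ y (φ x a) = φ x (φ y a) := by
      have := congrArg (fun β : MulAut A => β a) hcomm
      exact this.symm
    simp [this]
  have hinvyx : ∀ c ∈ Cm φ x, φ y c ∈ Cm φ x := by
    rintro _ ⟨a, rfl⟩
    refine ⟨φ y a, ?_⟩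
    have : φ x (φ y a) = φ y (φ x a) := by
      have := congrArg (fun β : MulAut A => β a) hcomm
      exact this
    simp [this]
  have hD : Cm φ x ⊓ Cm φ y = ⊥ := by
    by_contra hD
    have h1 := eq_of_invariant hA hx3 hcx (D := Cm φ x ⊓ Cm φ y) inf_le_left
      (fun d hd => ⟨Cm_invariant x hd.1, hinvxy d hd.2⟩) hD
    have h2 : Cm φ x ≤ Cm φ y := by
      rw [← h1]; exact inf_le_right
    exact hne (Subgroup.eq_of_le_of_card_ge h2 (by rw [hcx, hcy])).symm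
  have hfy : ∀ c ∈ Cm φ x, φ y c = c := by
    intro c hc
    have h1 : φ y c * c⁻¹ ∈ Cm φ x ⊓ Cm φ y :=
      Subgroup.mem_inf.mpr ⟨mul_mem (hinvyx c hc) (inv_mem hc), dl_mem φ y c⟩
    rw [hD, Subgroup.mem_bot] at h1
    exact mul_inv_eq_one.mp h1
  have hfx : ∀ c ∈ Cm φ y, φ x c = c := by
    intro c hc
    have h1 : φ x c * c⁻¹ ∈ Cm φ x ⊓ Cm φ y :=
      Subgroup.mem_inf.mpr ⟨dl_mem φ x c, mul_mem (hinvxy c hc) (inv_mem hc)⟩
    rw [hD, Subgroup.mem_bot] at h1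
    exact mul_inv_eq_one.mp h1
  have hCw : Cm φ w = Cm φ (x * y) := by
    rw [← Cm_inv φ (x * y)]
    apply Cm_congr
    rw [hw, map_inv, map_mul]
  have h1 : Cm φ x ≤ Cm φ w := by
    rw [hCw]
    intro c hc
    obtain ⟨c', hc', rfl⟩ := dl_surj hA hodd3 hx3 hc
    refine ⟨c', ?_⟩
    simp [map_mul, hfy c' hc']
  have h2 : Cm φ y ≤ Cm φ w := by
    rw [hCw]
    intro c hc
    obtain ⟨c', hc', rfl⟩ := dl_surj hA hodd3 hy3 hc
    refine ⟨c', ?_⟩
    simp [map_mul, hfx _ (Cm_invariant y hc')]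
  have h3 := Subgroup.eq_of_le_of_card_ge h1 (by rw [hcx, hcw])
  have h4 := Subgroup.eq_of_le_of_card_ge h2 (by rw [hcy, hcw])
  exact hne (h4.trans h3.symm)


theorem prime_pow_dvd_20160 {p k : ℕ} (hp : p.Prime) (hp2 : p ≠ 2) (hp3 : p ≠ 3) (h : p ^ k ∣ 20160) :
    k = 0 ∨ (k = 1 ∧ (p = 5 ∨ p = 7)) := by
  by_cases hk : k = 0
  · exact Or.inl hk
  right
  have hp1 : p ∣ 20160 := (dvd_pow_self p hk).trans h
  have h5 : p = 5 ∨ p = 7 := by
    have e : (20160 : ℕ) = 2 ^ 6 * (3 ^ 2 * (5 * 7)) := by norm_num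
    rw [e] at hp1
    rcases (Nat.Prime.dvd_mul hp).mp hp1 with h1 | h1
    · exact absurd ((Nat.prime_dvd_prime_iff_eq hp Nat.prime_two).mp (hp.dvd_of_dvd_pow h1)) hp2
    rcases (Nat.Prime.dvd_mul hp).mp h1 with h1 | h1
    · exact absurd ((Nat.prime_dvd_prime_iff_eq hp Nat.prime_three).mp (hp.dvd_of_dvd_pow h1)) hp3
    rcases (Nat.Prime.dvd_mul hp).mp h1 with h1 | h1
    · exact Or.inl ((Nat.prime_dvd_prime_iff_eq hp (by norm_num)).mp h1)
    · exact Or.inr ((Nat.prime_dvd_prime_iff_eq hp (by norm_num)).mp h1)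
  refine ⟨?_, h5⟩
  by_contra hk1
  have hk2 : 2 ≤ k := by omega
  have h2 : p ^ 2 ∣ 20160 := (pow_dvd_pow p hk2).trans h
  rcases h5 with rfl | rfl <;> exact absurd h2 (by norm_num)

theorem mod5_aux (j : ℕ) (h : j * (j * j) ≡ 1 [MOD 5]) : j % 5 = 1 := by
  unfold Nat.ModEq at h
  rw [Nat.mul_mod, Nat.mul_mod j j] at h
  have h2 : j % 5 < 5 := Nat.mod_lt _ (by norm_num)
  generalize j % 5 = r at *
  interval_cases r <;> first | rfl | (exact absurd h (by decide))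

theorem mod7_aux (j : ℕ) (h : j * (j * j) ≡ 1 [MOD 7]) : j % 7 = 1 ∨ j % 7 = 2 ∨ j % 7 = 4 := by
  unfold Nat.ModEq at h
  rw [Nat.mul_mod, Nat.mul_mod j j] at h
  have h2 : j % 7 < 7 := Nat.mod_lt _ (by norm_num)
  generalize j % 7 = r at *
  interval_cases r <;> first | decide | (exact absurd h (by decide))

section Moves

variable [Finite A] (hA : ∀ a : A, a ^ 2 = 1) {P : Subgroup G} {p : ℕ} [hpf : Fact p.Prime]
  (hp2 : p ≠ 2) (hp3 : p ≠ 3) (hP : ∀ t ∈ P, ∃ k : ℕ, t ^ (p ^ k) = 1) {x : G}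
  (hxP : ∀ t ∈ P, x⁻¹ * t * x ∈ P) (h3 : (φ x) ^ 3 = 1) (h4 : Nat.card (Cm φ x) = 4)

include hP hp2 in
/-- The image of a subgroup of `P` with small commutators. -/
theorem card_map_of_le {T : Subgroup G} (hTP : T ≤ P) (U : Subgroup A) (hU : Nat.card U ∣ 16)
    (hT : ∀ t ∈ T, Cm φ t ≤ U) (hA : ∀ a : A, a ^ 2 = 1) :
    ∃ k, Nat.card (T.map φ) = p ^ k ∧ p ^ k ∣ 20160 := by
  have hodd : ∀ t ∈ T, ∃ n, Odd n ∧ (φ t) ^ n = 1 := by
    intro t ht
    obtain ⟨k, hk⟩ := hP t (hTP ht)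
    refine ⟨p ^ k, (hpf.out.odd_of_ne_two hp2).pow, ?_⟩
    rw [← map_pow, hk, map_one]
  have hn := card_map_dvd hA T hodd U hU hT
  have hpg : IsPGroup p ↥(T.map φ) := by
    rintro ⟨_, t, ht, rfl⟩
    obtain ⟨k, hk⟩ := hP t (hTP ht)
    refine ⟨k, Subtype.ext ?_⟩
    simp only [SubmonoidClass.coe_pow, OneMemClass.coe_one]
    rw [← map_pow, hk, map_one]
  obtain ⟨k, hk⟩ := IsPGroup.iff_card.mp hpg
  exact ⟨k, hk, hk ▸ hn⟩

omit hpf in
include hA h3 h4 in
/-- A key containment for elements of order seven. -/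
theorem Cm_le_of_conj_pow {u : G} (hap : (φ u) ^ 7 = 1) (ha1 : φ u ≠ 1) {j : ℕ}
    (hj : (φ u) ^ j = (φ x)⁻¹ * φ u * φ x) (hjcase : j % 7 = 2 ∨ j % 7 = 4) : Cm φ x ≤ Cm φ u := by
  classical
  set α := φ x with hα
  set a := φ u with ha
  have hWinv : ∀ c ∈ Cm φ u, α⁻¹ c ∈ Cm φ u := by
    rintro _ ⟨b, rfl⟩
    have h2 : φ (u ^ j) = α⁻¹ * a * α := by rw [map_pow, ← hj]
    have h5 : φ (u ^ j) (α⁻¹ b) * (α⁻¹ b)⁻¹ = α⁻¹ (dl φ u b) := by
      rw [h2]
      simp [map_mul, map_inv, ha]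
    have h6 := Cm_pow_le φ u j (dl_mem φ (u ^ j) (α⁻¹ b))
    rwa [h5] at h6
  have hαinv : α⁻¹ = α * α := by
    rw [inv_eq_iff_mul_eq_one, ← h3]
    simp only [pow_succ, pow_zero, one_mul, mul_assoc]
  have hWinv' : ∀ c ∈ Cm φ u, α c ∈ Cm φ u := by
    intro c hc
    have h1 := hWinv _ (hWinv c hc)
    have h2 : α⁻¹ (α⁻¹ c) = α c := by
      rw [← MulAut.mul_apply, hαinv]
      have : α * α * (α * α) = α := by
        have h5 : α * α * (α * α) = α ^ 3 * α := by simp only [pow_succ, pow_zero, one_mul, mul_assoc]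
        rw [h5, h3, one_mul]
      rw [this]
    rwa [h2] at h1
  have hex : ∃ c ∈ Cm φ u, α c ≠ c := by
    by_contra hno
    push Not at hno
    have hα' : ∀ c ∈ Cm φ u, α⁻¹ c = c := by
      intro c hc
      have := hno c hc
      calc α⁻¹ c = α⁻¹ (α c) := by rw [this]
        _ = c := by simp
    apply ha1
    apply eq_one_of_fix_Cm (φ := φ) (g := u) hA (n := 7) (by decide) hap
    intro c hc
    have hkey : (a ^ j) c = a c := by
      rw [hj]
      change α⁻¹ (a (α c)) = a c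
      rw [hno c hc]
      exact hα' _ (Cm_invariant u hc)
    change a c = c
    rw [pow_eq_pow_mod j hap] at hkey
    rcases hjcase with h | h <;> rw [h] at hkey
    · have h1 : a (a c) = a c := by
        rw [pow_two] at hkey
        exact hkey
      exact a.injective h1
    · have h1 : (a ^ 3) c = c := by
        apply a.injective
        rw [← MulAut.mul_apply, ← pow_succ']
        exact hkey
      have h2 : a = (a ^ 3) ^ 5 := by
        rw [← pow_mul]
        have : (3 * 5 : ℕ) = 7 + 7 + 1 := by norm_num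
        rw [this, pow_add, pow_add, hap]; simp
      rw [h2]
      have h3'' : ∀ n : ℕ, ((a ^ 3) ^ n) c = c := by
        intro n
        induction n with
        | zero => rfl
        | succ n ih =>
          rw [pow_succ, MulAut.mul_apply, h1, ih]
      exact h3'' 5
  obtain ⟨c₀, hc₀, hc₀1⟩ := hex
  have hDeq : (Cm φ u).map (dl φ x) = Cm φ x := by
    apply eq_of_invariant hA h3 h4
    · rintro _ ⟨c, -, rfl⟩
      exact ⟨c, rfl⟩
    · rintro _ ⟨c, hc, rfl⟩
      refine ⟨α c, hWinv' c hc, ?_⟩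
      simp [map_mul, map_inv, hα]
    · intro h
      have : dl φ x c₀ ∈ (Cm φ u).map (dl φ x) := ⟨c₀, hc₀, rfl⟩
      rw [h, Subgroup.mem_bot] at this
      exact hc₀1 (mul_inv_eq_one.mp this)
  rw [← hDeq]
  rintro _ ⟨c, hc, rfl⟩
  exact mul_mem (hWinv' c hc) (inv_mem hc)


include hA hp2 hp3 hP hxP h3 h4 in
/-- The main case analysis for one element of `P`. -/
theorem u_cases {e : G} (he : e ∈ P) :
    φ (x⁻¹ * (e * x * e⁻¹)) = 1 ∨
      (p = 7 ∧ (φ (x⁻¹ * (e * x * e⁻¹))) ^ 7 = 1 ∧ Nat.card (Cm φ (x⁻¹ * (e * x * e⁻¹))) = 8 ∧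
        Cm φ x ≤ Cm φ (x⁻¹ * (e * x * e⁻¹))) := by
  classical
  set y := e * x * e⁻¹ with hy
  set u := x⁻¹ * y with hu
  have hy3 : (φ y) ^ 3 = 1 := by
    rw [hy, map_mul, map_mul, map_inv, conj_pow, h3]
    simp
  have huP : u ∈ P := by
    have : u = (x⁻¹ * e * x) * e⁻¹ := by rw [hu, hy]; group
    rw [this]
    exact mul_mem (hxP e he) (inv_mem he)
  have hcy : Nat.card (Cm φ y) = 4 := by rw [hy, card_Cm_conj, h4]
  set U := Cm φ x ⊔ Cm φ y with hU
  have hUd : Nat.card U ∣ 16 := by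
    have := card_sup_mul_card_inf (Cm φ x) (Cm φ y)
    rw [h4, hcy] at this
    exact Dvd.intro _ this
  have hCu : Cm φ u ≤ U := by
    refine (Cm_mul_le φ x⁻¹ y).trans ?_
    rw [Cm_inv]
  set α := φ x with hα
  set a := φ u with ha
  have hαU : ∀ v ∈ U, α⁻¹ v ∈ U := by
    intro v hv
    have h1 : Cm φ x⁻¹ ≤ U := by rw [Cm_inv]; exact le_sup_left
    have := apply_mem_of_Cm_le h1 hv
    rwa [map_inv] at this
  set u' := x⁻¹ * u * x with hu'
  have hau' : φ u' = α⁻¹ * a * α := by rw [hu', map_mul, map_mul, map_inv]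
  have hCu' : Cm φ u' ≤ U := by
    have e1 : u' = x⁻¹ * u * (x⁻¹)⁻¹ := by rw [hu', inv_inv]
    rw [e1, Cm_conj]
    rintro _ ⟨c, hc, rfl⟩
    have := hαU c (hCu hc)
    simpa [map_inv] using this
  set T := Subgroup.closure ({u, u'} : Set G) with hT
  have hTP : T ≤ P := by
    rw [hT, Subgroup.closure_le]
    rintro t (rfl | rfl)
    · exact huP
    · exact hxP _ huP
  have hTU : ∀ t ∈ T, Cm φ t ≤ U := by
    intro t ht
    refine Cm_le_of_mem_closure φ ?_ ht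
    rintro s (rfl | rfl)
    · exact hCu
    · exact hCu'
  obtain ⟨k, hk, hkd⟩ := card_map_of_le (φ := φ) hp2 hP hTP U hUd hTU hA
  by_cases ha1 : a = 1
  · exact Or.inl ha1
  right
  have huT : u ∈ T := Subgroup.subset_closure (by simp)
  have hu'T : u' ∈ T := Subgroup.subset_closure (by simp)
  have haT : a ∈ T.map φ := ⟨u, huT, rfl⟩
  have hk0 : k ≠ 0 := by
    rintro rfl
    rw [pow_zero] at hk
    have := Subgroup.card_eq_one.mp hk
    rw [this, Subgroup.mem_bot] at haT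
    exact ha1 haT
  obtain ⟨hk1, hp57⟩ := (prime_pow_dvd_20160 hpf.out hp2 hp3 hkd).resolve_left hk0
  subst hk1
  rw [pow_one] at hk
  have hap : a ^ p = 1 := by
    have := pow_card_eq_one' (G := ↥(T.map φ)) (x := ⟨a, haT⟩)
    rw [hk] at this
    exact congrArg Subtype.val this
  have hoa : orderOf a = p := orderOf_eq_prime hap ha1
  have hz : Subgroup.zpowers a = T.map φ := by
    apply Subgroup.eq_of_le_of_card_ge
    · rw [Subgroup.zpowers_le]; exact haT
    · rw [Nat.card_zpowers, hoa, hk]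
  have hu'z : φ u' ∈ Subgroup.zpowers a := by
    rw [hz]; exact ⟨u', hu'T, rfl⟩
  obtain ⟨j, hj⟩ : ∃ j : ℕ, a ^ j = α⁻¹ * a * α := by
    have := mem_powers_iff_mem_zpowers.mpr hu'z
    obtain ⟨j, hj⟩ := this
    refine ⟨j, ?_⟩
    change a ^ j = φ u' at hj
    rw [hj, hau']
  have hstep : ∀ m : ℕ, α⁻¹ * a ^ m * α = a ^ (j * m) := by
    intro m
    have h1 := conj_pow (a := α⁻¹) (b := a) (i := m)
    rw [inv_inv] at h1
    rw [← h1, ← hj, pow_mul]
  have hαinv3 : α⁻¹ * (α⁻¹ * (α⁻¹ * a * α) * α) * α = a := by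
    have e1 : α⁻¹ * (α⁻¹ * (α⁻¹ * a * α) * α) * α = (α ^ 3)⁻¹ * a * α ^ 3 := by
      simp only [pow_succ, pow_zero, one_mul]; group
    rw [e1, h3]; simp
  have hj3 : a ^ (j * (j * j)) = a := by
    have h1 := hαinv3
    rw [← pow_one a, hstep 1, mul_one, hstep j, hstep (j * j)] at h1
    rw [pow_one] at h1
    exact h1
  have hjmod : j * (j * j) ≡ 1 [MOD p] := by
    have : a ^ (j * (j * j)) = a ^ 1 := by rw [hj3, pow_one]
    rw [pow_eq_pow_iff_modEq, hoa] at this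
    exact this
  have hyau : φ y = α * a := by
    have : y = x * u := by rw [hu]; group
    rw [this, map_mul]
  have hj1 : j % p ≠ 1 := by
    intro hj1
    have h1 : a ^ j = a := by
      rw [pow_eq_pow_mod j hap, hj1, pow_one]
    have h2 : α⁻¹ * a * α = a := by rw [← hj, h1]
    have h3' : Commute α a := by
      have h := congrArg (fun z => α * z) h2
      simp only [mul_assoc, mul_inv_cancel_left] at h
      exact h.symm
    have h4' : a ^ 3 = 1 := by
      have h5 := hy3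
      rw [hyau, h3'.mul_pow, h3, one_mul] at h5
      exact h5
    have h5 : p ∣ 3 := hoa ▸ orderOf_dvd_of_pow_eq_one h4'
    exact hp3 ((Nat.prime_dvd_prime_iff_eq hpf.out Nat.prime_three).mp h5)
  have hp7 : p = 7 := by
    rcases hp57 with rfl | h7
    · exact absurd (mod5_aux j hjmod) hj1
    · exact h7
  subst hp7
  have hjcase : j % 7 = 2 ∨ j % 7 = 4 := by
    rcases mod7_aux j hjmod with h | h
    · exact absurd h hj1
    · exact h
  have h8 : Nat.card (Cm φ u) = 8 :=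
    card_Cm_eq_eight hA hap ha1 ((Subgroup.card_dvd_of_le hCu).trans hUd)
  refine ⟨rfl, hap, h8, ?_⟩
  exact Cm_le_of_conj_pow hA h3 h4 hap ha1 hj hjcase

include hA hp2 hp3 hP hxP h3 h4 in
/-- All non-trivial moves lie in one group of order seven. -/
theorem u_common {e f : G} (he : e ∈ P) (hf : f ∈ P) (hae : φ (x⁻¹ * (e * x * e⁻¹)) ≠ 1)
    (haf : φ (x⁻¹ * (f * x * f⁻¹)) ≠ 1) :
    φ (x⁻¹ * (f * x * f⁻¹)) ∈ Subgroup.zpowers (φ (x⁻¹ * (e * x * e⁻¹))) := by
  classical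
  obtain ⟨h7, ha7, hc8, hle⟩ := (u_cases hA hp2 hp3 hP hxP h3 h4 he).resolve_left hae
  obtain ⟨-, -, hc8', hle'⟩ := (u_cases hA hp2 hp3 hP hxP h3 h4 hf).resolve_left haf
  subst h7
  set ue := x⁻¹ * (e * x * e⁻¹) with hue
  set uf := x⁻¹ * (f * x * f⁻¹) with huf
  have huP : ∀ g ∈ P, x⁻¹ * (g * x * g⁻¹) ∈ P := by
    intro g hg
    have : x⁻¹ * (g * x * g⁻¹) = (x⁻¹ * g * x) * g⁻¹ := by group
    rw [this]
    exact mul_mem (hxP g hg) (inv_mem hg)
  set U := Cm φ ue ⊔ Cm φ uf with hU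
  have hUd : Nat.card U ∣ 16 := by
    have h1 := card_sup_mul_card_inf (Cm φ ue) (Cm φ uf)
    rw [hc8, hc8'] at h1
    have h2 : 4 ≤ Nat.card ↥(Cm φ ue ⊓ Cm φ uf) := by
      have h5 : Nat.card (Cm φ x) ∣ Nat.card ↥(Cm φ ue ⊓ Cm φ uf) :=
        Subgroup.card_dvd_of_le (le_inf hle hle')
      rw [h4] at h5
      exact Nat.le_of_dvd Nat.card_pos h5
    have h3' : Nat.card U ≤ 16 := by
      by_contra hcon
      push Not at hcon
      have : 17 * 4 ≤ Nat.card U * Nat.card ↥(Cm φ ue ⊓ Cm φ uf) := Nat.mul_le_mul hcon h2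
      rw [h1] at this
      omega
    have h5 : Nat.card U ∣ 2 ^ 6 := by
      rw [show (2 : ℕ) ^ 6 = 8 * 8 by norm_num, ← h1]
      exact Dvd.intro _ rfl
    obtain ⟨i, hi, hi2⟩ := (Nat.dvd_prime_pow Nat.prime_two).mp h5
    rw [hi2] at h3' ⊢
    have hi4 : i ≤ 4 := by
      by_contra hcon
      push Not at hcon
      have : 2 ^ 5 ≤ 2 ^ i := Nat.pow_le_pow_right (by norm_num) hcon
      omega
    exact pow_dvd_pow 2 hi4
  set T := Subgroup.closure ({ue, uf} : Set G) with hT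
  have hTP : T ≤ P := by
    rw [hT, Subgroup.closure_le]
    rintro t (rfl | rfl)
    · exact huP e he
    · exact huP f hf
  have hTU : ∀ t ∈ T, Cm φ t ≤ U := by
    intro t ht
    refine Cm_le_of_mem_closure φ ?_ ht
    rintro s (rfl | rfl)
    · exact le_sup_left
    · exact le_sup_right
  obtain ⟨k, hk, hkd⟩ := card_map_of_le (φ := φ) hp2 hP hTP U hUd hTU hA
  have haT : φ ue ∈ T.map φ := ⟨ue, Subgroup.subset_closure (by simp), rfl⟩
  have hfT : φ uf ∈ T.map φ := ⟨uf, Subgroup.subset_closure (by simp), rfl⟩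
  have hk0 : k ≠ 0 := by
    rintro rfl
    rw [pow_zero] at hk
    have := Subgroup.card_eq_one.mp hk
    rw [this, Subgroup.mem_bot] at haT
    exact hae haT
  obtain ⟨hk1, -⟩ := (prime_pow_dvd_20160 hpf.out hp2 hp3 hkd).resolve_left hk0
  subst hk1
  rw [pow_one] at hk
  have hz : Subgroup.zpowers (φ ue) = T.map φ := by
    apply Subgroup.eq_of_le_of_card_ge
    · rw [Subgroup.zpowers_le]; exact haT
    · rw [Nat.card_zpowers, orderOf_eq_prime ha7 hae, hk]
  rw [hz]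
  exact hfT

include hA hp2 hp3 hP hxP h3 h4 in
/-- A big stabilizer of the class of `x` in any subgroup of `P`. -/
theorem exists_stab (E' : Subgroup G) (hE' : E' ≤ P) :
    ∃ H : Subgroup G, H ≤ E' ∧ (∀ e ∈ H, φ (e * x * e⁻¹) = φ x) ∧ H.relIndex E' ≤ p := by
  classical
  obtain ⟨A₀, hA₀, hA₀c⟩ : ∃ A₀ : Subgroup (MulAut A),
      (∀ e ∈ P, φ (x⁻¹ * (e * x * e⁻¹)) ∈ A₀) ∧ Nat.card A₀ ≤ p := by
    by_cases h : ∀ e ∈ P, φ (x⁻¹ * (e * x * e⁻¹)) = 1
    · refine ⟨⊥, fun e he => by rw [h e he]; exact one_mem _, ?_⟩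
      rw [Subgroup.card_bot]
      exact hpf.out.one_lt.le
    · push Not at h
      obtain ⟨e₀, he₀, hne⟩ := h
      obtain ⟨h7, ha7, -, -⟩ := (u_cases hA hp2 hp3 hP hxP h3 h4 he₀).resolve_left hne
      refine ⟨Subgroup.zpowers (φ (x⁻¹ * (e₀ * x * e₀⁻¹))), fun f hf => ?_, ?_⟩
      · by_cases hf1 : φ (x⁻¹ * (f * x * f⁻¹)) = 1
        · rw [hf1]; exact one_mem _
        · exact u_common hA hp2 hp3 hP hxP h3 h4 he₀ hf hne hf1
      · rw [Nat.card_zpowers, h7]
        exact Nat.le_of_dvd (by norm_num) (orderOf_dvd_of_pow_eq_one ha7)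
  set H : Subgroup G := E' ⊓ (Subgroup.centralizer ({φ x} : Set (MulAut A))).comap φ with hH
  have hmemH : ∀ e, e ∈ H ↔ e ∈ E' ∧ φ e * φ x = φ x * φ e := by
    intro e
    rw [hH, Subgroup.mem_inf, Subgroup.mem_comap, Subgroup.mem_centralizer_singleton_iff]
  have hfix : ∀ e ∈ H, φ (e * x * e⁻¹) = φ x := by
    intro e he
    have h1 := ((hmemH e).mp he).2
    rw [map_mul, map_mul, map_inv, h1]
    simp
  refine ⟨H, inf_le_left, hfix, ?_⟩
  let K : Subgroup E' := H.subgroupOf E'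
  have hrel : H.relIndex E' = Nat.card (E' ⧸ K) := rfl
  rw [hrel]
  have hqeq : ∀ a b : E', (φ (x⁻¹ * (a.1 * x * a.1⁻¹)) = φ (x⁻¹ * (b.1 * x * b.1⁻¹))) ↔ a⁻¹ * b ∈ K := by
    intro a b
    rw [Subgroup.mem_subgroupOf, hmemH]
    have h2 : ((a⁻¹ * b : E') : G) = a.1⁻¹ * b.1 := rfl
    rw [h2]
    constructor
    · intro h
      refine ⟨mul_mem (inv_mem a.2) b.2, ?_⟩
      simp only [map_mul, map_inv] at h ⊢
      have h3 := mul_left_cancel h
      have h4' : φ a.1 * φ x * (φ a.1)⁻¹ * φ b.1 = φ b.1 * φ x := by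
        rw [h3]; group
      calc (φ a.1)⁻¹ * φ b.1 * φ x = (φ a.1)⁻¹ * (φ b.1 * φ x) := by group
        _ = (φ a.1)⁻¹ * (φ a.1 * φ x * (φ a.1)⁻¹ * φ b.1) := by rw [h4']
        _ = φ x * ((φ a.1)⁻¹ * φ b.1) := by group
    · rintro ⟨-, h⟩
      simp only [map_mul, map_inv] at h ⊢
      congr 1
      have h3 : φ b.1 * φ x = φ a.1 * φ x * (φ a.1)⁻¹ * φ b.1 := by
        calc φ b.1 * φ x = φ a.1 * ((φ a.1)⁻¹ * φ b.1 * φ x) := by group
          _ = φ a.1 * (φ x * ((φ a.1)⁻¹ * φ b.1)) := by rw [h]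
          _ = φ a.1 * φ x * (φ a.1)⁻¹ * φ b.1 := by group
      calc φ a.1 * φ x * (φ a.1)⁻¹ = φ a.1 * φ x * (φ a.1)⁻¹ * φ b.1 * (φ b.1)⁻¹ := by group
        _ = φ b.1 * φ x * (φ b.1)⁻¹ := by rw [← h3]
  let q : E' ⧸ K → A₀ := Quotient.lift (s := QuotientGroup.leftRel K)
    (fun a => ⟨φ (x⁻¹ * (a.1 * x * a.1⁻¹)), hA₀ _ (hE' a.2)⟩) (by
      intro a b hab
      exact Subtype.ext ((hqeq a b).mpr (QuotientGroup.leftRel_apply.mp hab)))
  have hq : Function.Injective q := by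
    intro a b
    induction a using QuotientGroup.induction_on with
    | H a =>
      induction b using QuotientGroup.induction_on with
      | H b =>
        intro hab
        have h1 : φ (x⁻¹ * (a.1 * x * a.1⁻¹)) = φ (x⁻¹ * (b.1 * x * b.1⁻¹)) := congrArg Subtype.val hab
        exact QuotientGroup.eq.mpr ((hqeq a b).mp h1)
  exact (Nat.card_le_card_of_injective q hq).trans hA₀c

end Moves

end Cfsg.Agent.Lib.CmRankTwo
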