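import Mathlib
import Cfsg.Agent.Lib.CmRankTwo
import Cfsg.Agent.Lib.PCore
import Cfsg.Agent.S0640
import Cfsg.Agent.S0100
import Cfsg.Agent.Lib.Hall
import Cfsg.Agent.Lib.HallExist

/-!
`p`-elements in `{3, p}`-groups of small 3-rank.
-/

set_option autoImplicit false
set_option linter.style.haveILetI false

open Cfsg
open scoped Pointwise

namespace Cfsg.Agent.Lib.CmRankTwoB

open Cfsg.Agent.Lib.PCore

universe u

/-- Lifting an elementary abelian 3-subgroup through a normal `p`-subgroup. -/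
theorem lift_elem {W : Type u} [Group W] [Finite W] {p : ℕ} [Fact p.Prime] (hp3 : p ≠ 3) (N : Subgroup W) [N.Normal]
    (hN : IsPGroup p N) (B : Subgroup (W ⧸ N)) (hBc : IsMulCommutative B) (hB3 : ∀ b ∈ B, b ^ 3 = 1) :
    ∃ T : Subgroup W, IsMulCommutative T ∧ (∀ t ∈ T, t ^ 3 = 1) ∧ Nat.card T = Nat.card B := by
  classical
  haveI : Fact (Nat.Prime 3) := ⟨Nat.prime_three⟩
  set π := QuotientGroup.mk' N with hπ
  set Bt := B.comap π with hBt
  have hNBt : N ≤ Bt := by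
    intro n hn
    change π n ∈ B
    have : π n = 1 := (QuotientGroup.eq_one_iff n).mpr hn
    rw [this]
    exact one_mem _
  let ψ : ↥Bt →* W ⧸ N := π.comp Bt.subtype
  have hrange : ψ.range = B := by
    ext b
    constructor
    · rintro ⟨t, rfl⟩
      exact t.2
    · intro hb
      obtain ⟨w, rfl⟩ := QuotientGroup.mk'_surjective N b
      exact ⟨⟨w, hb⟩, rfl⟩
  have hker : ψ.ker = N.subgroupOf Bt := by
    ext t
    rw [MonoidHom.mem_ker, Subgroup.mem_subgroupOf]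
    exact QuotientGroup.eq_one_iff _
  have hB3g : IsPGroup 3 B := by
    intro b
    refine ⟨1, Subtype.ext ?_⟩
    simpa using hB3 b.1 b.2
  have hidx : ψ.ker.index = Nat.card B := by
    rw [Subgroup.index_ker, hrange]
  have hNc : IsPGroup p (ψ.ker) := by
    rw [hker]
    intro t
    obtain ⟨k, hk⟩ := hN ⟨t.1.1, t.2⟩
    refine ⟨k, Subtype.ext (Subtype.ext ?_)⟩
    have := congrArg Subtype.val hk
    simpa using this
  have hcop : Nat.Coprime (Nat.card ψ.ker) ψ.ker.index := by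
    rw [hidx]
    obtain ⟨a, ha⟩ := IsPGroup.iff_card.mp hNc
    obtain ⟨b, hb⟩ := IsPGroup.iff_card.mp hB3g
    rw [ha, hb]
    exact Nat.Coprime.pow _ _ ((Nat.coprime_primes (Fact.out) (Fact.out)).mpr hp3)
  obtain ⟨C, hC⟩ := Subgroup.exists_right_complement'_of_coprime hcop
  have hdisj : ∀ t ∈ C, ψ t = 1 → t = 1 := by
    intro t ht h1
    have : t ∈ ψ.ker ⊓ C := ⟨h1, ht⟩
    rw [hC.disjoint.eq_bot, Subgroup.mem_bot] at this
    exact this
  have hψB : ∀ t : ↥Bt, ψ t ∈ B := fun t => t.2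
  refine ⟨C.map Bt.subtype, ?_, ?_, ?_⟩
  · refine ⟨⟨?_⟩⟩
    rintro ⟨_, a, ha, rfl⟩ ⟨_, b, hb, rfl⟩
    have hab : a * b * a⁻¹ * b⁻¹ = 1 := by
      apply hdisj _ (mul_mem (mul_mem (mul_mem ha hb) (inv_mem ha)) (inv_mem hb))
      have h2 : ψ a * ψ b = ψ b * ψ a := by
        have := hBc.is_comm.comm ⟨ψ a, hψB a⟩ ⟨ψ b, hψB b⟩
        exact congrArg Subtype.val this
      simp only [map_mul, map_inv]
      rw [h2]
      group
    have h3 : a * b = b * a := by
      have := mul_inv_eq_one.mp hab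
      exact mul_inv_eq_iff_eq_mul.mp this
    apply Subtype.ext
    change (a : W) * b = b * a
    exact congrArg Subtype.val h3
  · rintro _ ⟨a, ha, rfl⟩
    have h1 : a ^ 3 = 1 := by
      apply hdisj _ (pow_mem ha 3)
      rw [map_pow]
      exact hB3 _ (hψB a)
    change (a : W) ^ 3 = 1
    have := congrArg Subtype.val h1
    simpa using this
  · rw [Subgroup.card_map_of_injective Bt.subtype_injective, ← hidx]
    exact hC.symm.index_eq_card.symm

/-- In a solvable `{3, p}`-group with `p ≥ 5` and no large elementary abelian 3-subgroups every `p`-element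
lies in `O_p`. -/
theorem mem_pCore_of_pElem {W : Type u} [Group W] [Finite W] [Group.IsSolvable W] {p : ℕ} [hpf : Fact p.Prime]
    (hp2 : p ≠ 2) (hp3 : p ≠ 3) (hW : ∀ r : ℕ, r.Prime → r ∣ Nat.card W → r = 3 ∨ r = p)
    (hno : ∀ B : Subgroup W, IsMulCommutative B → (∀ b ∈ B, b ^ 3 = 1) → Nat.card B ≤ 9) {e : W} {k : ℕ}
    (he : e ^ (p ^ k) = 1) : e ∈ pCore p W := by
  classical
  haveI h3f : Fact (Nat.Prime 3) := ⟨Nat.prime_three⟩
  set N := pCore p W with hN
  set X := W ⧸ N with hX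
  set π : W →* X := QuotientGroup.mk' N with hπ
  have hN1 : pCore p X = ⊥ := pCore_quotient_pCore p
  have hXprimes : ∀ r : ℕ, r.Prime → r ∣ Nat.card X → r = 3 ∨ r = p := by
    intro r hr hd
    exact hW r hr (hd.trans (Subgroup.card_quotient_dvd_card N))
  have hcore : pPrimeCore 3 X = ⊥ := by
    rw [eq_bot_iff, ← hN1]
    apply le_pCore (inferInstance)
    have hcop := card_pPrimeCore_coprime (G := X) 3
    refine IsPGroup.of_card (Nat.eq_prime_pow_of_unique_prime_dvd Nat.card_pos.ne' (fun {d} hd hdv => ?_))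
    rcases hXprimes d hd (hdv.trans (Subgroup.card_subgroup_dvd_card _)) with rfl | h
    · exfalso
      have := Nat.Coprime.eq_one_of_dvd hcop.symm hdv
      omega
    · exact h
  set R := pCore 3 X with hR
  have hcent := centralizer_pCore_le (G := X) 3 hcore
  have hRp : IsPGroup 3 R := isPGroup_pCore 3
  have hrk : PRankLE 3 2 ↥R := by
    intro A hAc hA3
    have hBc : IsMulCommutative ↥(A.map R.subtype) := by
      refine ⟨⟨?_⟩⟩
      rintro ⟨_, a, ha, rfl⟩ ⟨_, b, hb, rfl⟩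
      apply Subtype.ext
      have := hAc.is_comm.comm ⟨a, ha⟩ ⟨b, hb⟩
      have h2 : a * b = b * a := congrArg Subtype.val this
      change (a : X) * b = b * a
      exact congrArg Subtype.val h2
    obtain ⟨T, hT1, hT2, hT3⟩ := lift_elem hp3 N (isPGroup_pCore p) (A.map R.subtype) hBc (by
      rintro _ ⟨a, ha, rfl⟩
      have := hA3 a ha
      have h2 := congrArg Subtype.val this
      simpa using h2)
    have h1 := hno T hT1 hT2
    rw [hT3, Subgroup.card_map_of_injective R.subtype_injective] at h1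
    simpa using h1
  set ē := π e with hē
  have hēp : ē ^ (p ^ k) = 1 := by rw [hē, ← map_pow, he, map_one]
  have hα : MulAut.conjNormal (H := R) ē = 1 := by
    by_contra hne
    have h1 : (MulAut.conjNormal (H := R) ē) ^ (p ^ k) = 1 := by
      rw [← map_pow, hēp, map_one]
    obtain ⟨i, -, hi⟩ := (Nat.dvd_prime_pow hpf.out).mp (orderOf_dvd_of_pow_eq_one h1)
    have hi0 : i ≠ 0 := by
      rintro rfl
      rw [pow_zero, orderOf_eq_one_iff] at hi
      exact hne hi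
    have hd : p ∣ Nat.card (MulAut ↥R) :=
      ((dvd_pow_self p hi0).trans hi.symm.dvd).trans (orderOf_dvd_natCard _)
    have h2 := (Cfsg.Agent.S0640.result (R := ↥R) (p := 3) (by norm_num) hRp hrk p hpf.out hp3 hd).2
    have h3 := hpf.out.two_le
    omega
  have hēR : ē ∈ R := by
    apply hcent
    rw [Subgroup.mem_centralizer_iff]
    intro r hr
    have h1 : MulAut.conjNormal (H := R) ē ⟨r, hr⟩ = ⟨r, hr⟩ := by rw [hα]; rfl
    have h2 := congrArg Subtype.val h1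
    rw [MulAut.conjNormal_apply] at h2
    have h2' : ē * r * ē⁻¹ = r := h2
    have h3 : ē * r = r * ē := by
      calc ē * r = ē * r * ē⁻¹ * ē := by group
        _ = r * ē := by rw [h2']
    exact h3.symm
  obtain ⟨l, hl⟩ := hRp ⟨ē, hēR⟩
  have hl' : ē ^ (3 ^ l) = 1 := by
    have := congrArg Subtype.val hl
    simpa using this
  have hone : ē = 1 := by
    have h1 := orderOf_dvd_of_pow_eq_one hl'
    have h2 := orderOf_dvd_of_pow_eq_one hēp
    have h3 : Nat.Coprime (3 ^ l) (p ^ k) :=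
      Nat.Coprime.pow _ _ ((Nat.coprime_primes Nat.prime_three hpf.out).mpr (Ne.symm hp3))
    have h4 := Nat.Coprime.eq_one_of_dvd (Nat.Coprime.coprime_dvd_left h1 h3) h2
    exact orderOf_eq_one_iff.mp h4
  exact (QuotientGroup.eq_one_iff e).mp hone


section Main

open Cfsg.Agent.Lib.CmRankTwo

variable {S : Type u} [Group S] {A : Type*} [CommGroup A] [Finite A] {φ : S →* MulAut A}

variable (φ) in
/-- Elements fixing the commutator of `x` pointwise. -/
def Cen (x : S) : Subgroup S where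
  carrier := {e | ∀ c ∈ Cm φ x, φ e c = c}
  mul_mem' {a b} ha hb c hc := by
    rw [map_mul, MulAut.mul_apply, hb c hc, ha c hc]
  one_mem' c _ := by simp
  inv_mem' {a} ha c hc := by
    rw [map_inv]
    calc (φ a)⁻¹ c = (φ a)⁻¹ (φ a c) := by rw [ha c hc]
      _ = c := by simp

theorem mem_Cen {x e : S} : e ∈ Cen φ x ↔ ∀ c ∈ Cm φ x, φ e c = c := Iff.rfl

theorem relIndex_mul_card' {H K : Subgroup S} (h : H ≤ K) : H.relIndex K * Nat.card H = Nat.card K := by
  have h1 := Subgroup.card_mul_index (H.subgroupOf K)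
  have h2 : Nat.card (H.subgroupOf K) = Nat.card H :=
    Nat.card_congr (Subgroup.subgroupOfEquivOfLe h).toEquiv
  rw [h2] at h1
  rw [mul_comm]
  exact h1

/-- A group permuting the four elements of the commutator. -/
theorem relIndex_dvd_24 {x : S} (D : Subgroup S) (hD : ∀ d ∈ D, ∀ c ∈ Cm φ x, φ d c ∈ Cm φ x)
    (h4 : Nat.card (Cm φ x) = 4) : (D ⊓ Cen φ x).relIndex D ∣ 24 := by
  classical
  let τ : ↥D →* Equiv.Perm ↥(Cm φ x) := MonoidHom.mk' (fun d =>
    { toFun := fun c => ⟨φ d.1 c.1, hD _ d.2 _ c.2⟩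
      invFun := fun c => ⟨φ d.1⁻¹ c.1, hD _ (inv_mem d.2) _ c.2⟩
      left_inv := fun c => Subtype.ext (by simp [map_inv])
      right_inv := fun c => Subtype.ext (by simp [map_inv]) }) (by
    intro a b
    ext c
    simp)
  have hτ : ∀ (d : ↥D) (c : ↥(Cm φ x)), ((τ d c : ↥(Cm φ x)) : A) = φ d.1 c.1 := fun _ _ => rfl
  have hker : τ.ker = (D ⊓ Cen φ x).subgroupOf D := by
    ext d
    rw [MonoidHom.mem_ker, Subgroup.mem_subgroupOf, Subgroup.mem_inf]
    constructor
    · intro h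
      refine ⟨d.2, fun c hc => ?_⟩
      have := congrArg (fun σ : Equiv.Perm ↥(Cm φ x) => ((σ ⟨c, hc⟩ : ↥(Cm φ x)) : A)) h
      simpa [hτ] using this
    · rintro ⟨-, h⟩
      ext c
      rw [hτ]
      exact h c.1 c.2
  have h1 : (D ⊓ Cen φ x).relIndex D = Nat.card τ.range := by
    change ((D ⊓ Cen φ x).subgroupOf D).index = _
    rw [← hker, Subgroup.index_ker]
  rw [h1]
  have h2 := Subgroup.card_subgroup_dvd_card τ.range
  rw [Nat.card_perm, h4] at h2
  exact h2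

/-- Two elements in a 3-group with commutators of order four commute on `A`. -/
theorem commute_of_three (hA : ∀ a : A, a ^ 2 = 1) {R : Subgroup S} (hR : ∀ t ∈ R, ∃ k : ℕ, t ^ (3 ^ k) = 1) {x y : S}
    (hx : x ∈ R) (hy : y ∈ R) (hcx : Nat.card (Cm φ x) = 4) (hcy : Nat.card (Cm φ y) = 4) :
    φ x * φ y = φ y * φ x := by
  classical
  haveI : Fact (Nat.Prime 3) := ⟨Nat.prime_three⟩
  set U := Cm φ x ⊔ Cm φ y with hU
  have hUd : Nat.card U ∣ 16 := by
    have := card_sup_mul_card_inf (Cm φ x) (Cm φ y)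
    rw [hcx, hcy] at this
    exact Dvd.intro _ this
  set T := Subgroup.closure ({x, y} : Set S) with hT
  have hTR : T ≤ R := by
    rw [hT, Subgroup.closure_le]
    rintro t (rfl | rfl)
    · exact hx
    · exact hy
  have hTU : ∀ t ∈ T, Cm φ t ≤ U := by
    intro t ht
    refine Cm_le_of_mem_closure φ ?_ ht
    rintro s (rfl | rfl)
    · exact le_sup_left
    · exact le_sup_right
  obtain ⟨k, hk, hkd⟩ := card_map_of_le (φ := φ) (p := 3) (by norm_num) hR hTR U hUd hTU hA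
  have hk2 : k ≤ 2 := by
    by_contra hcon
    push Not at hcon
    have : 3 ^ 3 ∣ 20160 := (pow_dvd_pow 3 hcon).trans hkd
    omega
  have hcomm : ∀ a b : ↥(T.map φ), a * b = b * a := by
    interval_cases k
    · rw [pow_zero] at hk
      haveI := (Nat.card_eq_one_iff_unique.mp hk).1
      intro a b
      exact Subsingleton.elim _ _
    · rw [pow_one] at hk
      haveI := isCyclic_of_prime_card (p := 3) hk
      exact fun a b => (IsCyclic.commGroup).mul_comm a b
    · haveI := IsPGroup.isMulCommutative_of_card_eq_prime_sq hk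
      exact fun a b => mul_comm' a b
  have hxT : φ x ∈ T.map φ := ⟨x, Subgroup.subset_closure (by simp), rfl⟩
  have hyT : φ y ∈ T.map φ := ⟨y, Subgroup.subset_closure (by simp), rfl⟩
  have := hcomm ⟨φ x, hxT⟩ ⟨φ y, hyT⟩
  exact congrArg Subtype.val this

/-- The conjugation step. -/
theorem conj_step (hA : ∀ a : A, a ^ 2 = 1) {x f u : S} (hx3 : (φ x) ^ 3 = 1) (hx4 : Nat.card (Cm φ x) = 4)
    (hfx : f * x * f⁻¹ = x * u) (hfu : f * u = u * f) (hu3 : u ^ 3 = 1)
    (hcomm : φ x * φ (f * x * f⁻¹) = φ (f * x * f⁻¹) * φ x) : Cm φ (f * x * f⁻¹) = Cm φ x := by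
  set y := f * x * f⁻¹ with hy
  have hy3 : (φ y) ^ 3 = 1 := by
    rw [hy, map_mul, map_mul, map_inv, conj_pow, hx3]
    simp
  have hcy : Nat.card (Cm φ y) = 4 := by rw [hy, card_Cm_conj, hx4]
  set w := f * y * f⁻¹ with hw
  have hcw : Nat.card (Cm φ w) = 4 := by rw [hw, card_Cm_conj, hcy]
  have hwe : w = x * u * u := by
    have h1 : f * u * f⁻¹ = u := by rw [hfu]; group
    have h2 : w = y * (f * u * f⁻¹) := by
      have h5 : y = f * x * f⁻¹ := hy
      rw [hw]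
      conv_lhs => rw [hfx]
      rw [h5]
      group
    rw [h2, hfx, h1]
  have hu : φ u = (φ x)⁻¹ * φ y := by
    have h5 : u = x⁻¹ * y := by rw [hfx]; group
    rw [h5, map_mul, map_inv]
  have hu3' : (φ u) ^ 3 = 1 := by rw [← map_pow, hu3, map_one]
  have huinv : φ u * φ u = (φ u)⁻¹ := by
    rw [eq_inv_iff_mul_eq_one, ← hu3']
    simp only [pow_succ, pow_zero, one_mul]
  have hφw : φ w = (φ x * φ y)⁻¹ := by
    rw [hwe, map_mul, map_mul, mul_assoc, huinv, hu]
    have hαα : φ x * φ x = (φ x)⁻¹ := by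
      rw [eq_inv_iff_mul_eq_one, ← hx3]
      simp only [pow_succ, pow_zero, one_mul]
    calc φ x * ((φ x)⁻¹ * φ y)⁻¹ = φ x * ((φ y)⁻¹ * φ x) := by group
      _ = φ x * ((φ y)⁻¹ * φ x) * 1 := by rw [mul_one]
      _ = (φ x)⁻¹ * (φ y)⁻¹ := by
        have hc : (φ y)⁻¹ * φ x = φ x * (φ y)⁻¹ := by
          rw [inv_mul_eq_iff_eq_mul, ← mul_assoc, ← hcomm]
          group
        rw [mul_one, hc, ← mul_assoc, hαα]
      _ = (φ y * φ x)⁻¹ := by group
      _ = (φ x * φ y)⁻¹ := by rw [hcomm]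
  exact Cm_eq_of_commute hA hx3 hy3 hx4 hcy hcw hcomm hφw

/-- The case of a large elementary abelian 3-subgroup. -/
theorem caseA [Finite S] (hA : ∀ a : A, a ^ 2 = 1) {x : S} (hx3 : (φ x) ^ 3 = 1) (hx4 : Nat.card (Cm φ x) = 4)
    (hxo : ∃ k : ℕ, x ^ (3 ^ k) = 1) (B : Subgroup S) (hB : IsElementaryAbelian 3 B) (hB27 : Nat.card B = 27) :
    ∃ F : Subgroup S, IsElementaryAbelian 3 F ∧ Nat.card F = 27 ∧ 9 ≤ Nat.card ↥(F ⊓ Cen φ x) := by
  classical
  haveI h3f : Fact (Nat.Prime 3) := ⟨Nat.prime_three⟩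
  have hX : IsPGroup 3 (Subgroup.zpowers x) := by
    obtain ⟨k, hk⟩ := hxo
    obtain ⟨i, -, hi⟩ := (Nat.dvd_prime_pow Nat.prime_three).mp (orderOf_dvd_of_pow_eq_one hk)
    exact IsPGroup.of_card (n := i) (by rw [Nat.card_zpowers, hi])
  obtain ⟨R, hxR'⟩ := hX.exists_le_sylow
  have hxR : x ∈ R := hxR' (Subgroup.mem_zpowers x)
  have hBp : IsPGroup 3 B := by
    intro b
    exact ⟨1, Subtype.ext (by simpa using hB.2 b.1 b.2)⟩
  obtain ⟨R₂, hBR₂⟩ := hBp.exists_le_sylow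
  obtain ⟨g, hg⟩ := MulAction.exists_smul_eq S R₂ R
  set B₁ := B.map (MulAut.conj g).toMonoidHom with hB₁
  have hB₁R : B₁ ≤ R := by
    rintro _ ⟨b, hb, rfl⟩
    rw [← hg, Sylow.coe_subgroup_smul]
    exact Subgroup.smul_mem_pointwise_smul _ _ _ (hBR₂ hb)
  set B₂ := B₁.subgroupOf (R : Subgroup S) with hB₂
  have hB₂c : Nat.card B₂ = 27 := by
    rw [hB₂, Nat.card_congr (Subgroup.subgroupOfEquivOfLe hB₁R).toEquiv, hB₁,
      Subgroup.card_map_of_injective (MulAut.conj g).injective, hB27]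
  have hB₂comm : IsMulCommutative B₂ := by
    refine ⟨⟨?_⟩⟩
    rintro ⟨a, ha⟩ ⟨b, hb⟩
    obtain ⟨a', ha', hea⟩ := ha
    obtain ⟨b', hb', heb⟩ := hb
    apply Subtype.ext
    apply Subtype.ext
    change (a : S) * b = b * a
    have hea' : (MulAut.conj g).toMonoidHom a' = (a : S) := hea
    have heb' : (MulAut.conj g).toMonoidHom b' = (b : S) := heb
    rw [← hea', ← heb']
    have := hB.1.is_comm.comm ⟨a', ha'⟩ ⟨b', hb'⟩
    have h2 : a' * b' = b' * a' := congrArg Subtype.val this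
    simp only [MulEquiv.coe_toMonoidHom, ← map_mul, h2]
  have hB₂e : ∀ b ∈ B₂, b ^ 3 = 1 := by
    rintro b ⟨b', hb', heb⟩
    apply Subtype.ext
    change (b : S) ^ 3 = 1
    have heb' : (MulAut.conj g).toMonoidHom b' = (b : S) := heb
    rw [← heb']
    simp only [MulEquiv.coe_toMonoidHom, ← map_pow]
    rw [hB.2 b' hb', map_one]
  obtain ⟨A', hA'n, hA'c, hA'e, hA'27⟩ : ∃ A' : Subgroup R, A'.Normal ∧ IsMulCommutative A' ∧
      (∀ a ∈ A', a ^ 3 = 1) ∧ Nat.card A' = 27 := by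
    by_contra hex
    have := Cfsg.Agent.S0100.result (P := R) (p := 3) (by norm_num) R.isPGroup'
      (fun A' h1 h2 h3 h4 => hex ⟨A', h1, h2, h3, h4⟩) B₂ hB₂comm hB₂e
    rw [hB₂c] at this
    omega
  set F := A'.map (R : Subgroup S).subtype with hF
  have hRe : ∀ t ∈ (R : Subgroup S), ∃ k : ℕ, t ^ (3 ^ k) = 1 := by
    intro t ht
    obtain ⟨k, hk⟩ := R.isPGroup' ⟨t, ht⟩
    exact ⟨k, by simpa using congrArg Subtype.val hk⟩
  have hnorm : ∀ f ∈ F, ∀ c ∈ Cm φ x, φ f c ∈ Cm φ x := by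
    rintro _ ⟨f', hf', rfl⟩ c hc
    set x' : R := ⟨x, hxR⟩ with hx'
    set f := (f' : S) with hf
    set u' : R := (x'⁻¹ * f' * x') * f'⁻¹ with hu'
    have hu'A : u' ∈ A' := by
      refine mul_mem ?_ (inv_mem hf')
      have := hA'n.conj_mem f' hf' x'⁻¹
      rwa [inv_inv] at this
    have hfx : f * x * f⁻¹ = x * (u' : S) := by
      have : (u' : S) = x⁻¹ * f * x * f⁻¹ := rfl
      rw [this]; group
    have hfu : f * (u' : S) = (u' : S) * f := by
      have := hA'c.is_comm.comm ⟨f', hf'⟩ ⟨u', hu'A⟩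
      have h2 : f' * u' = u' * f' := congrArg Subtype.val this
      exact congrArg Subtype.val h2
    have hu3 : (u' : S) ^ 3 = 1 := by
      have := hA'e u' hu'A
      simpa using congrArg Subtype.val this
    have hyR : f * x * f⁻¹ ∈ (R : Subgroup S) := by
      rw [hfx]
      exact mul_mem hxR u'.2
    have hcy : Nat.card (Cm φ (f * x * f⁻¹)) = 4 := by rw [card_Cm_conj, hx4]
    have hcomm := commute_of_three hA hRe hxR hyR hx4 hcy
    have hst := conj_step hA hx3 hx4 hfx hfu hu3 hcomm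
    rw [← hst, Cm_conj]
    exact ⟨c, hc, rfl⟩
  have hFc : Nat.card F = 27 := by
    rw [hF, Subgroup.card_map_of_injective (Subgroup.subtype_injective _), hA'27]
  have hFe : IsElementaryAbelian 3 F := by
    refine ⟨⟨⟨?_⟩⟩, ?_⟩
    · rintro ⟨_, a, ha, rfl⟩ ⟨_, b, hb, rfl⟩
      have := hA'c.is_comm.comm ⟨a, ha⟩ ⟨b, hb⟩
      have h2 : a * b = b * a := congrArg Subtype.val this
      apply Subtype.ext
      change (a : S) * b = b * a
      exact congrArg Subtype.val h2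
    · rintro _ ⟨a, ha, rfl⟩
      have := hA'e a ha
      simpa using congrArg Subtype.val this
  refine ⟨F, hFe, hFc, ?_⟩
  have hdvd := relIndex_dvd_24 F hnorm hx4
  have hmul := relIndex_mul_card' (inf_le_left : F ⊓ Cen φ x ≤ F)
  rw [hFc] at hmul
  have h3 : (F ⊓ Cen φ x).relIndex F ∣ 3 := by
    have h1 : (F ⊓ Cen φ x).relIndex F ∣ 27 := Dvd.intro _ hmul
    have h2 := Nat.dvd_gcd h1 hdvd
    simpa using h2
  have h4 : (F ⊓ Cen φ x).relIndex F ≤ 3 := Nat.le_of_dvd (by norm_num) h3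
  by_contra hcon
  push Not at hcon
  have : (F ⊓ Cen φ x).relIndex F * Nat.card ↥(F ⊓ Cen φ x) ≤ 3 * 8 := Nat.mul_le_mul h4 (by omega)
  omega

/-- The case of small elementary abelian 3-subgroups. -/
theorem caseB [Finite S] [Group.IsSolvable S] (hA : ∀ a : A, a ^ 2 = 1) {x : S} (hx3 : (φ x) ^ 3 = 1)
    (hx4 : Nat.card (Cm φ x) = 4) (hxo : ∃ k : ℕ, x ^ (3 ^ k) = 1) {p : ℕ} [hpf : Fact p.Prime] (hp2 : p ≠ 2) (hp3 : p ≠ 3)
    (E : Subgroup S) (hE : IsElementaryAbelian p E) (hE3 : Nat.card E = p ^ 3)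
    (hno : ∀ B : Subgroup S, IsMulCommutative B → (∀ b ∈ B, b ^ 3 = 1) → Nat.card B ≤ 9) :
    ∃ F : Subgroup S, IsElementaryAbelian p F ∧ Nat.card F = p ^ 3 ∧ p ^ 2 ≤ Nat.card ↥(F ⊓ Cen φ x) := by
  classical
  haveI h3f : Fact (Nat.Prime 3) := ⟨Nat.prime_three⟩
  obtain ⟨H, hH1, hH2⟩ := Cfsg.Agent.Lib.HallExist.exists_hall (fun q => q = 3 ∨ q = p) S
  have hcop : (Nat.card H).Coprime H.index := by
    apply Nat.coprime_of_dvd
    intro k hk hk1 hk2
    exact hH2 k hk hk2 (hH1 k hk hk1)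
  have hall := (Cfsg.Agent.Lib.Hall.hall_main (Nat.card S) S (Nat.card H) H.index rfl
    (Subgroup.card_mul_index H).symm hcop).2 H
  have h3idx : (3 : ℕ).Coprime H.index := by
    rw [Nat.Prime.coprime_iff_not_dvd Nat.prime_three]
    exact fun h => hH2 3 Nat.prime_three h (Or.inl rfl)
  have hpidx : p.Coprime H.index := by
    rw [Nat.Prime.coprime_iff_not_dvd hpf.out]
    exact fun h => hH2 p hpf.out h (Or.inr rfl)
  obtain ⟨g₁, hg₁⟩ := hall (Subgroup.zpowers x) rfl (by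
    obtain ⟨k, hk⟩ := hxo
    obtain ⟨i, -, hi⟩ := (Nat.dvd_prime_pow Nat.prime_three).mp (orderOf_dvd_of_pow_eq_one hk)
    rw [Nat.card_zpowers, hi]
    exact h3idx.pow_left i)
  obtain ⟨g₂, hg₂⟩ := hall E rfl (by
    rw [hE3]
    exact hpidx.pow_left 3)
  set W : Subgroup S := MulAut.conj g₁ • H with hW
  have hcW : Nat.card W = Nat.card H :=
    (Nat.card_congr (Subgroup.equivSMul (MulAut.conj g₁) H).toEquiv).symm
  have hxW : x ∈ W := hg₁ (Subgroup.mem_zpowers x)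
  set c := g₁ * g₂⁻¹ with hc
  set E' : Subgroup S := E.map (MulAut.conj c).toMonoidHom with hE'
  have hE'W : E' ≤ W := by
    rintro _ ⟨e, he, rfl⟩
    have h1 := hg₂ he
    rw [Cfsg.Agent.Lib.PCore.mem_conj_smul_iff] at h1
    rw [hW, Cfsg.Agent.Lib.PCore.mem_conj_smul_iff]
    have : g₁⁻¹ * (MulAut.conj c).toMonoidHom e * g₁ = g₂⁻¹ * e * g₂ := by
      simp only [MulEquiv.coe_toMonoidHom, MulAut.conj_apply, hc]
      group
    rw [this]
    exact h1
  have hE'c : Nat.card E' = p ^ 3 := by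
    rw [hE', Subgroup.card_map_of_injective (MulAut.conj c).injective, hE3]
  have hE'e : IsElementaryAbelian p E' := by
    refine ⟨⟨⟨?_⟩⟩, ?_⟩
    · rintro ⟨_, a, ha, rfl⟩ ⟨_, b, hb, rfl⟩
      have := hE.1.is_comm.comm ⟨a, ha⟩ ⟨b, hb⟩
      have h2 : a * b = b * a := congrArg Subtype.val this
      apply Subtype.ext
      change (MulAut.conj c).toMonoidHom a * (MulAut.conj c).toMonoidHom b =
        (MulAut.conj c).toMonoidHom b * (MulAut.conj c).toMonoidHom a
      rw [← map_mul, ← map_mul, h2]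
    · rintro _ ⟨a, ha, rfl⟩
      rw [← map_pow, hE.2 a ha, map_one]
  haveI : Group.IsSolvable ↥W := inferInstance
  have hWp : ∀ r : ℕ, r.Prime → r ∣ Nat.card W → r = 3 ∨ r = p := by
    intro r hr hd
    rw [hcW] at hd
    exact hH1 r hr hd
  have hnoW : ∀ B : Subgroup W, IsMulCommutative B → (∀ b ∈ B, b ^ 3 = 1) → Nat.card B ≤ 9 := by
    intro B hB1 hB2
    have h1 := hno (B.map W.subtype) (by
      refine ⟨⟨?_⟩⟩
      rintro ⟨_, a, ha, rfl⟩ ⟨_, b, hb, rfl⟩
      have := hB1.is_comm.comm ⟨a, ha⟩ ⟨b, hb⟩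
      have h2 : a * b = b * a := congrArg Subtype.val this
      apply Subtype.ext
      change (a : S) * b = b * a
      exact congrArg Subtype.val h2) (by
      rintro _ ⟨a, ha, rfl⟩
      have := hB2 a ha
      simpa using congrArg Subtype.val this)
    rwa [Subgroup.card_map_of_injective W.subtype_injective] at h1
  set P : Subgroup S := (pCore p ↥W).map W.subtype with hP
  have hPe : ∀ t ∈ P, ∃ k : ℕ, t ^ (p ^ k) = 1 := by
    rintro _ ⟨t, ht, rfl⟩
    obtain ⟨k, hk⟩ := isPGroup_pCore (G := ↥W) p ⟨t, ht⟩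
    refine ⟨k, ?_⟩
    have h1 : t ^ (p ^ k) = 1 := by simpa using congrArg Subtype.val hk
    simpa using congrArg Subtype.val h1
  have hxP : ∀ t ∈ P, x⁻¹ * t * x ∈ P := by
    rintro _ ⟨t, ht, rfl⟩
    have h1 := (pCore_normal (G := ↥W) p).conj_mem t ht (⟨x, hxW⟩ : ↥W)⁻¹
    rw [inv_inv] at h1
    exact ⟨_, h1, rfl⟩
  have hE'P : E' ≤ P := by
    intro e he
    refine ⟨⟨e, hE'W he⟩, ?_, rfl⟩
    apply mem_pCore_of_pElem hp2 hp3 hWp hnoW (k := 1)
    apply Subtype.ext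
    rw [pow_one]
    exact hE'e.2 e he
  obtain ⟨H₁, hH₁le, hfix, hidx⟩ := exists_stab hA hp2 hp3 hPe hxP hx3 hx4 E' hE'P
  have hnorm : ∀ d ∈ H₁, ∀ c ∈ Cm φ x, φ d c ∈ Cm φ x := by
    intro d hd c hc
    have h1 : Cm φ (d * x * d⁻¹) = Cm φ x := Cm_congr φ (hfix d hd)
    rw [← h1, Cm_conj]
    exact ⟨c, hc, rfl⟩
  have hrel := relIndex_dvd_24 H₁ hnorm hx4
  have hH₁p : IsPGroup p H₁ := by
    intro d
    refine ⟨1, Subtype.ext ?_⟩
    simpa using hE'e.2 d.1 (hH₁le d.2)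
  obtain ⟨a, ha⟩ := IsPGroup.iff_card.mp hH₁p
  have hrel1 : (H₁ ⊓ Cen φ x).relIndex H₁ = 1 := by
    have h1 : (H₁ ⊓ Cen φ x).relIndex H₁ ∣ p ^ a := by
      rw [← ha]
      exact Dvd.intro _ (relIndex_mul_card' inf_le_left)
    have h2 : Nat.Coprime 24 (p ^ a) := by
      apply Nat.Coprime.pow_right
      have h24 : (24 : ℕ) = 2 ^ 3 * 3 := by norm_num
      rw [h24]
      apply Nat.Coprime.mul_left
      · apply Nat.Coprime.pow_left
        exact (Nat.coprime_primes Nat.prime_two hpf.out).mpr (Ne.symm hp2)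
      · exact (Nat.coprime_primes Nat.prime_three hpf.out).mpr (Ne.symm hp3)
    exact Nat.Coprime.eq_one_of_dvd (Nat.Coprime.coprime_dvd_left hrel h2) h1
  have hH₁C : H₁ ≤ Cen φ x := by
    have h1 : (H₁ ⊓ Cen φ x) = H₁ := by
      apply Subgroup.eq_of_le_of_card_ge inf_le_left
      have := relIndex_mul_card' (inf_le_left : H₁ ⊓ Cen φ x ≤ H₁)
      rw [hrel1, one_mul] at this
      omega
    rw [← h1]
    exact inf_le_right
  refine ⟨E', hE'e, hE'c, ?_⟩
  have hmul := relIndex_mul_card' hH₁le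
  rw [hE'c] at hmul
  have hle : p ^ 2 ≤ Nat.card H₁ := by
    by_contra hcon
    push Not at hcon
    have h1 : H₁.relIndex E' * Nat.card H₁ < p * p ^ 2 := by
      calc H₁.relIndex E' * Nat.card H₁ ≤ p * Nat.card H₁ := Nat.mul_le_mul_right _ hidx
        _ < p * p ^ 2 := Nat.mul_lt_mul_of_pos_left hcon hpf.out.pos
    rw [hmul] at h1
    have h2 : p * p ^ 2 = p ^ 3 := by ring
    omega
  exact hle.trans (Subgroup.card_le_of_le (le_inf hH₁le hH₁C))

/-- The abstract form of the theorem. -/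
theorem abstract_main [Finite S] [Group.IsSolvable S] (hA : ∀ a : A, a ^ 2 = 1) {x : S} (hx3 : (φ x) ^ 3 = 1)
    (hx4 : Nat.card (Cm φ x) = 4) (hxo : ∃ k : ℕ, x ^ (3 ^ k) = 1) {p : ℕ} (hp : p.Prime) (hp2 : p ≠ 2)
    (E : Subgroup S) (hE : IsElementaryAbelian p E) (hE3 : Nat.card E = p ^ 3) :
    ∃ (r : ℕ) (F : Subgroup S), r.Prime ∧ r ≠ 2 ∧ IsElementaryAbelian r F ∧ Nat.card F = r ^ 3 ∧
      r ^ 2 ≤ Nat.card ↥(F ⊓ Cen φ x) := by
  classical
  haveI h3f : Fact (Nat.Prime 3) := ⟨Nat.prime_three⟩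
  haveI hpf : Fact p.Prime := ⟨hp⟩
  by_cases h27 : ∃ B : Subgroup S, IsElementaryAbelian 3 B ∧ Nat.card B = 27
  · obtain ⟨B, hB, hB27⟩ := h27
    obtain ⟨F, hF1, hF2, hF3⟩ := caseA hA hx3 hx4 hxo B hB hB27
    exact ⟨3, F, Nat.prime_three, by norm_num, hF1, by rw [hF2]; norm_num, by norm_num; exact hF3⟩
  · have hp3 : p ≠ 3 := by
      rintro rfl
      exact h27 ⟨E, hE, by rw [hE3]; norm_num⟩
    have hno : ∀ B : Subgroup S, IsMulCommutative B → (∀ b ∈ B, b ^ 3 = 1) → Nat.card B ≤ 9 := by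
      intro B hB1 hB2
      by_contra hcon
      push Not at hcon
      have hBp : IsPGroup 3 B := by
        intro b
        exact ⟨1, Subtype.ext (by simpa using hB2 b.1 b.2)⟩
      obtain ⟨k, hk⟩ := IsPGroup.iff_card.mp hBp
      have hk3 : 3 ≤ k := by
        by_contra hk3
        push Not at hk3
        have : 3 ^ k ≤ 3 ^ 2 := Nat.pow_le_pow_right (by norm_num) (by omega)
        omega
      obtain ⟨K, hK⟩ := Sylow.exists_subgroup_card_pow_prime (G := ↥B) 3 (n := 3) (by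
        rw [hk]; exact pow_dvd_pow 3 hk3)
      apply h27
      refine ⟨K.map B.subtype, ⟨⟨⟨?_⟩⟩, ?_⟩, ?_⟩
      · rintro ⟨_, a, ha, rfl⟩ ⟨_, c, hc, rfl⟩
        have := hB1.is_comm.comm a c
        apply Subtype.ext
        change (a : S) * c = c * a
        exact congrArg Subtype.val this
      · rintro _ ⟨a, ha, rfl⟩
        exact hB2 a.1 a.2
      · rw [Subgroup.card_map_of_injective B.subtype_injective, hK]
        norm_num
    obtain ⟨F, hF1, hF2, hF3⟩ := caseB hA hx3 hx4 hxo hp2 hp3 E hE hE3 hno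
    exact ⟨p, F, hp, hp2, hF1, hF2, hF3⟩

end Main

end Cfsg.Agent.Lib.CmRankTwoB
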