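import Mathlib

/-!
# Rectangular arrays of norm three vectors in the standard lattice

The combinatorial core of the cyclic TI theorem: an array `γ i j` of vectors of `ℤ^E` whose inner
products are those of `x i + y j + z i j`, for `x, y, z` orthonormal, is of this form as soon as there
are at least four columns and two rows (and not exactly three rows).
-/

set_option autoImplicit false
set_option linter.unusedVariables false
set_option linter.unusedSectionVars false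

namespace Cfsg.Agent.Lib.CycArray

open Matrix

variable {E : Type*} [Fintype E]

/-- A unit vector. -/
def IsU (u : E → ℤ) : Prop := u ⬝ᵥ u = 1

theorem nonneg_self (v : E → ℤ) : 0 ≤ v ⬝ᵥ v :=
  Finset.sum_nonneg (fun i _ => mul_self_nonneg _)

theorem eq_zero_of_self {v : E → ℤ} (h : v ⬝ᵥ v = 0) : v = 0 := dotProduct_self_eq_zero.1 h

theorem unit_bound {u w : E → ℤ} (hu : IsU u) (hw : IsU w) : -1 ≤ u ⬝ᵥ w ∧ u ⬝ᵥ w ≤ 1 := by
  have h1 := nonneg_self (u - w)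
  have h2 := nonneg_self (u + w)
  simp only [sub_dotProduct, dotProduct_sub, add_dotProduct, dotProduct_add] at h1 h2
  rw [dotProduct_comm w u] at h1 h2
  unfold IsU at hu hw
  constructor <;> linarith

theorem eq_of_inner_one {u w : E → ℤ} (hu : IsU u) (hw : IsU w) (h : u ⬝ᵥ w = 1) : u = w := by
  have h1 : (u - w) ⬝ᵥ (u - w) = 0 := by
    simp only [sub_dotProduct, dotProduct_sub]
    rw [dotProduct_comm w u]
    unfold IsU at hu hw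
    linarith
  exact sub_eq_zero.1 (eq_zero_of_self h1)

theorem eq_neg_of_inner {u w : E → ℤ} (hu : IsU u) (hw : IsU w) (h : u ⬝ᵥ w = -1) : u = -w := by
  have h1 : (u + w) ⬝ᵥ (u + w) = 0 := by
    simp only [add_dotProduct, dotProduct_add]
    rw [dotProduct_comm w u]
    unfold IsU at hu hw
    linarith
  exact eq_neg_of_add_eq_zero_left (eq_zero_of_self h1)

/-- A unit orthogonal to a sum of two orthogonal units is orthogonal to both. -/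
theorem orth_of_sum2 {r s z : E → ℤ} (hr : IsU r) (hs : IsU s) (hz : IsU z) (hrs : r ⬝ᵥ s = 0)
    (h : z ⬝ᵥ (r + s) = 0) : z ⬝ᵥ r = 0 ∧ z ⬝ᵥ s = 0 := by
  rw [dotProduct_add] at h
  obtain ⟨h1, h2⟩ := unit_bound hz hr
  have h3 : z ⬝ᵥ r = 0 := by
    by_contra hne
    have h4 : z ⬝ᵥ r = 1 ∨ z ⬝ᵥ r = -1 := by omega
    rcases h4 with h4 | h4
    · have := eq_of_inner_one hz hr h4
      subst this
      rw [h4, hrs] at h
      norm_num at h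
    · have := eq_neg_of_inner hz hr h4
      subst this
      rw [h4, neg_dotProduct, hrs] at h
      norm_num at h
  refine ⟨h3, ?_⟩
  rw [h3, zero_add] at h
  exact h

/-- A unit orthogonal to a sum of three orthogonal units is orthogonal to all of them. -/
theorem orth_of_sum3 {a b c z : E → ℤ} (ha : IsU a) (hb : IsU b) (hc : IsU c) (hz : IsU z)
    (hab : a ⬝ᵥ b = 0) (hac : a ⬝ᵥ c = 0) (hbc : b ⬝ᵥ c = 0)
    (h : z ⬝ᵥ (a + b + c) = 0) : z ⬝ᵥ a = 0 ∧ z ⬝ᵥ b = 0 ∧ z ⬝ᵥ c = 0 := by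
  rw [dotProduct_add, dotProduct_add] at h
  obtain ⟨h1, h2⟩ := unit_bound hz ha
  have h3 : z ⬝ᵥ a = 0 := by
    by_contra hne
    have h4 : z ⬝ᵥ a = 1 ∨ z ⬝ᵥ a = -1 := by omega
    rcases h4 with h4 | h4
    · have := eq_of_inner_one hz ha h4
      subst this
      rw [h4, hab, hac] at h
      norm_num at h
    · have := eq_neg_of_inner hz ha h4
      subst this
      rw [h4, neg_dotProduct, neg_dotProduct, hab, hac] at h
      norm_num at h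
  rw [h3, zero_add, ← dotProduct_add] at h
  exact ⟨h3, orth_of_sum2 hb hc hz hbc h⟩

section Bessel

variable {ι : Type*} [Fintype ι] [DecidableEq ι]

theorem bessel_aux (u : ι → E → ℤ) (hu : ∀ i j, u i ⬝ᵥ u j = if i = j then 1 else 0) (v : E → ℤ) :
    (v - ∑ i, (v ⬝ᵥ u i) • u i) ⬝ᵥ (v - ∑ i, (v ⬝ᵥ u i) • u i) = v ⬝ᵥ v - ∑ i, (v ⬝ᵥ u i) ^ 2 := by
  have h1 : ∀ j, (∑ i, (v ⬝ᵥ u i) • u i) ⬝ᵥ u j = v ⬝ᵥ u j := by
    intro j
    rw [sum_dotProduct]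
    simp_rw [smul_dotProduct, hu]
    simp
  have h2 : (∑ i, (v ⬝ᵥ u i) • u i) ⬝ᵥ (∑ i, (v ⬝ᵥ u i) • u i) = ∑ i, (v ⬝ᵥ u i) ^ 2 := by
    rw [dotProduct_sum]
    simp_rw [dotProduct_smul, h1]
    simp [pow_two]
  have h3 : v ⬝ᵥ (∑ i, (v ⬝ᵥ u i) • u i) = ∑ i, (v ⬝ᵥ u i) ^ 2 := by
    rw [dotProduct_sum]
    simp_rw [dotProduct_smul]
    simp [pow_two]
  simp only [sub_dotProduct, dotProduct_sub]
  have h4 : (∑ i, (v ⬝ᵥ u i) • u i) ⬝ᵥ v = ∑ i, (v ⬝ᵥ u i) ^ 2 := by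
    rw [dotProduct_comm, h3]
  rw [h2, h3, h4]
  ring

/-- Bessel's inequality. -/
theorem bessel (u : ι → E → ℤ) (hu : ∀ i j, u i ⬝ᵥ u j = if i = j then 1 else 0) (v : E → ℤ) :
    ∑ i, (v ⬝ᵥ u i) ^ 2 ≤ v ⬝ᵥ v := by
  have := nonneg_self (v - ∑ i, (v ⬝ᵥ u i) • u i)
  rw [bessel_aux u hu] at this
  linarith

theorem eq_of_bessel (u : ι → E → ℤ) (hu : ∀ i j, u i ⬝ᵥ u j = if i = j then 1 else 0) (v : E → ℤ)
    (h : v ⬝ᵥ v = ∑ i, (v ⬝ᵥ u i) ^ 2) : v = ∑ i, (v ⬝ᵥ u i) • u i := by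
  have h1 := bessel_aux u hu v
  rw [h, sub_self] at h1
  exact sub_eq_zero.1 (eq_zero_of_self h1)

end Bessel

theorem bessel2 {a b : E → ℤ} (ha : IsU a) (hb : IsU b) (hab : a ⬝ᵥ b = 0) (v : E → ℤ) :
    (v ⬝ᵥ a) ^ 2 + (v ⬝ᵥ b) ^ 2 ≤ v ⬝ᵥ v := by
  have h := bessel ![a, b] (by
    intro i j
    have hba : b ⬝ᵥ a = 0 := by rw [dotProduct_comm]; exact hab
    fin_cases i <;> fin_cases j <;> simp [hab, hba] <;> first | exact ha | exact hb) v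
  simpa [Fin.sum_univ_two] using h

theorem bessel3 {a b c : E → ℤ} (ha : IsU a) (hb : IsU b) (hc : IsU c) (hab : a ⬝ᵥ b = 0)
    (hac : a ⬝ᵥ c = 0) (hbc : b ⬝ᵥ c = 0) (v : E → ℤ) :
    (v ⬝ᵥ a) ^ 2 + (v ⬝ᵥ b) ^ 2 + (v ⬝ᵥ c) ^ 2 ≤ v ⬝ᵥ v := by
  have h := bessel ![a, b, c] (by
    intro i j
    have hba : b ⬝ᵥ a = 0 := by rw [dotProduct_comm]; exact hab
    have hca : c ⬝ᵥ a = 0 := by rw [dotProduct_comm]; exact hac
    have hcb : c ⬝ᵥ b = 0 := by rw [dotProduct_comm]; exact hbc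
    fin_cases i <;> fin_cases j <;> simp [hab, hba, hac, hca, hbc, hcb] <;>
      first | exact ha | exact hb | exact hc) v
  simpa [Fin.sum_univ_three] using h

/-- There is a unit with positive inner product with a nonzero vector. -/
theorem exists_unit {v : E → ℤ} (hv : v ≠ 0) : ∃ u : E → ℤ, IsU u ∧ 1 ≤ v ⬝ᵥ u := by
  classical
  obtain ⟨e, he⟩ : ∃ e, v e ≠ 0 := by
    by_contra h
    push Not at h
    exact hv (funext h)
  rcases lt_or_gt_of_ne he with h | h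
  · refine ⟨-Pi.single e 1, ?_, ?_⟩
    · unfold IsU
      simp
    · simp only [dotProduct_neg, dotProduct_single, mul_one]
      omega
  · refine ⟨Pi.single e 1, ?_, ?_⟩
    · unfold IsU
      simp
    · simp only [dotProduct_single, mul_one]
      omega

/-- A vector of small positive norm has inner product one with some unit. -/
theorem exists_unit_one {v : E → ℤ} (h1 : 1 ≤ v ⬝ᵥ v) (h3 : v ⬝ᵥ v ≤ 3) :
    ∃ u : E → ℤ, IsU u ∧ v ⬝ᵥ u = 1 := by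
  have hv : v ≠ 0 := by
    rintro rfl
    simp at h1
  obtain ⟨u, hu, hvu⟩ := exists_unit hv
  refine ⟨u, hu, ?_⟩
  have h4 := nonneg_self (v - (v ⬝ᵥ u) • u)
  simp only [sub_dotProduct, dotProduct_sub, smul_dotProduct, dotProduct_smul, smul_eq_mul] at h4
  rw [dotProduct_comm u v, show u ⬝ᵥ u = 1 from hu] at h4
  nlinarith

theorem decomp2 {v : E → ℤ} (h : v ⬝ᵥ v = 2) :
    ∃ a b : E → ℤ, IsU a ∧ IsU b ∧ a ⬝ᵥ b = 0 ∧ v = a + b := by
  obtain ⟨a, ha, hva⟩ := exists_unit_one (v := v) (by omega) (by omega)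
  refine ⟨a, v - a, ha, ?_, ?_, by abel⟩
  · unfold IsU
    simp only [sub_dotProduct, dotProduct_sub]
    rw [dotProduct_comm a v, show a ⬝ᵥ a = 1 from ha]
    omega
  · rw [dotProduct_sub, dotProduct_comm a v, show a ⬝ᵥ a = 1 from ha]
    omega

theorem decomp3 {v : E → ℤ} (h : v ⬝ᵥ v = 3) :
    ∃ a b c : E → ℤ, IsU a ∧ IsU b ∧ IsU c ∧ a ⬝ᵥ b = 0 ∧ a ⬝ᵥ c = 0 ∧ b ⬝ᵥ c = 0 ∧ v = a + b + c := by
  obtain ⟨a, ha, hva⟩ := exists_unit_one (v := v) (by omega) (by omega)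
  have h2 : (v - a) ⬝ᵥ (v - a) = 2 := by
    simp only [sub_dotProduct, dotProduct_sub]
    rw [dotProduct_comm a v, show a ⬝ᵥ a = 1 from ha]
    omega
  obtain ⟨b, c, hb, hc, hbc, hd⟩ := decomp2 h2
  have h3 : a ⬝ᵥ (b + c) = 0 := by
    rw [← hd, dotProduct_sub, dotProduct_comm a v, show a ⬝ᵥ a = 1 from ha]
    omega
  obtain ⟨h4, h5⟩ := orth_of_sum2 hb hc ha hbc h3
  refine ⟨a, b, c, ha, hb, hc, h4, h5, hbc, ?_⟩
  rw [add_assoc, ← hd]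
  abel

theorem int3 (A B C : ℤ) (h : A + B + C = 1) (hs : A ^ 2 + B ^ 2 + C ^ 2 ≤ 3) :
    (A = 1 ∧ B = 0 ∧ C = 0) ∨ (A = 0 ∧ B = 1 ∧ C = 0) ∨ (A = 0 ∧ B = 0 ∧ C = 1) ∨
      (A = 1 ∧ B = 1 ∧ C = -1) ∨ (A = 1 ∧ B = -1 ∧ C = 1) ∨ (A = -1 ∧ B = 1 ∧ C = 1) := by
  have ba : A ≤ 1 := by nlinarith [sq_nonneg B, sq_nonneg C, sq_nonneg (A - 1), sq_nonneg (A + 1)]
  have ba' : -1 ≤ A := by nlinarith [sq_nonneg B, sq_nonneg C, sq_nonneg (A - 1), sq_nonneg (A + 1)]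
  have bb : B ≤ 1 := by nlinarith [sq_nonneg A, sq_nonneg C, sq_nonneg (B - 1), sq_nonneg (B + 1)]
  have bb' : -1 ≤ B := by nlinarith [sq_nonneg A, sq_nonneg C, sq_nonneg (B - 1), sq_nonneg (B + 1)]
  obtain rfl : C = 1 - A - B := by omega
  interval_cases A <;> interval_cases B <;> first | omega | (exfalso; norm_num at hs)

/-- If `w` meets `v = a + b + c` with inner product one, it contains exactly one of `a, b, c`, provided
that there is a vector `y` distinguishing `v` from `w`. -/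
theorem overlap {v w y a b c : E → ℤ} (ha : IsU a) (hb : IsU b) (hc : IsU c) (hab : a ⬝ᵥ b = 0)
    (hac : a ⬝ᵥ c = 0) (hbc : b ⬝ᵥ c = 0) (hv : v = a + b + c) (hw : w ⬝ᵥ w = 3) (hvw : w ⬝ᵥ v = 1)
    (hy1 : y ⬝ᵥ v = 1) (hy0 : y ⬝ᵥ w = 0) :
    (w ⬝ᵥ a = 1 ∧ w ⬝ᵥ b = 0 ∧ w ⬝ᵥ c = 0) ∨ (w ⬝ᵥ a = 0 ∧ w ⬝ᵥ b = 1 ∧ w ⬝ᵥ c = 0) ∨
      (w ⬝ᵥ a = 0 ∧ w ⬝ᵥ b = 0 ∧ w ⬝ᵥ c = 1) := by
  subst hv
  simp only [dotProduct_add] at hvw hy1
  have hB := bessel3 ha hb hc hab hac hbc w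
  rw [hw] at hB
  -- the exceptional case: `w = a + b - c` and its permutations
  have hnot : ∀ p q r : E → ℤ, IsU p → IsU q → IsU r → p ⬝ᵥ q = 0 → p ⬝ᵥ r = 0 → q ⬝ᵥ r = 0 →
      w ⬝ᵥ p = 1 → w ⬝ᵥ q = 1 → w ⬝ᵥ r = -1 → y ⬝ᵥ p + y ⬝ᵥ q + y ⬝ᵥ r = 1 → False := by
    intro p q r hp hq hr hpq hpr hqr h1 h2 h3 h4
    have h5 : w = p + q - r := by
      have h6 : (w - (p + q - r)) ⬝ᵥ (w - (p + q - r)) = 0 := by
        simp only [sub_dotProduct, dotProduct_sub, add_dotProduct, dotProduct_add]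
        rw [dotProduct_comm p w, dotProduct_comm q w, dotProduct_comm r w, dotProduct_comm q p,
          dotProduct_comm r p, dotProduct_comm r q, h1, h2, h3, hw, hpq, hpr, hqr,
          show p ⬝ᵥ p = 1 from hp, show q ⬝ᵥ q = 1 from hq, show r ⬝ᵥ r = 1 from hr]
        norm_num
      exact sub_eq_zero.1 (eq_zero_of_self h6)
    rw [h5] at hy0
    simp only [dotProduct_sub, dotProduct_add] at hy0
    omega
  have hcases := int3 _ _ _ (by simpa using hvw) hB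
  rcases hcases with h | h | h | ⟨h1, h2, h3⟩ | ⟨h1, h2, h3⟩ | ⟨h1, h2, h3⟩
  · exact Or.inl h
  · exact Or.inr (Or.inl h)
  · exact Or.inr (Or.inr h)
  · exact (hnot a b c ha hb hc hab hac hbc h1 h2 h3 hy1).elim
  · exact (hnot a c b ha hc hb hac hab (by rw [dotProduct_comm]; exact hbc) h1 h3 h2 (by omega)).elim
  · exact (hnot b c a hb hc ha hbc (by rw [dotProduct_comm]; exact hab) (by rw [dotProduct_comm]; exact hac)
      h2 h3 h1 (by omega)).elim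


section CaseA

theorem sq_bound (c : ℤ) (h : c ^ 2 ≤ 3) : -1 ≤ c ∧ c ≤ 1 := by
  constructor <;> nlinarith [sq_nonneg (c - 1), sq_nonneg (c + 1)]

theorem int_y4 (A B B' C C' D D' : ℤ) (h1 : A + B + B' = 0) (h2 : A + C + C' = 0) (h3 : A + D + D' = 0)
    (h4 : B + C + D = 1)
    (hs : A ^ 2 + B ^ 2 + B' ^ 2 + C ^ 2 + C' ^ 2 + D ^ 2 + D' ^ 2 ≤ 3) :
    (A = 0 ∧ B = 1 ∧ B' = -1 ∧ C = 0 ∧ C' = 0 ∧ D = 0 ∧ D' = 0) ∨
    (A = 0 ∧ B = 0 ∧ B' = 0 ∧ C = 1 ∧ C' = -1 ∧ D = 0 ∧ D' = 0) ∨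
    (A = 0 ∧ B = 0 ∧ B' = 0 ∧ C = 0 ∧ C' = 0 ∧ D = 1 ∧ D' = -1) := by
  have h := fun c : ℤ => sq_nonneg c
  obtain ⟨a1, a2⟩ := sq_bound A (by linarith [h B, h B', h C, h C', h D, h D'])
  obtain ⟨b1, b2⟩ := sq_bound B (by linarith [h A, h B', h C, h C', h D, h D'])
  obtain ⟨c1, c2⟩ := sq_bound C (by linarith [h B, h B', h A, h C', h D, h D'])
  obtain rfl : B' = - A - B := by omega
  obtain rfl : C' = - A - C := by omega
  obtain rfl : D = 1 - B - C := by omega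
  obtain rfl : D' = - A - (1 - B - C) := by omega
  interval_cases A <;> interval_cases B <;> interval_cases C <;> first | (exfalso; revert hs; norm_num; done) | norm_num

theorem int_y1 (A B B' C C' D D' τ : ℤ) (h1 : A + B + B' = 1) (h2 : A + C + C' = 0) (h3 : A + D + D' = 0)
    (h4 : B + C + D = 0) (h5 : B - B' + τ = 1)
    (hs : A ^ 2 + B ^ 2 + B' ^ 2 + C ^ 2 + C' ^ 2 + D ^ 2 + D' ^ 2 + τ ^ 2 ≤ 3) :
    (A = 0 ∧ B = 1 ∧ B' = 0 ∧ C = -1 ∧ C' = 1 ∧ D = 0 ∧ D' = 0 ∧ τ = 0) ∨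
    (A = 0 ∧ B = 1 ∧ B' = 0 ∧ C = 0 ∧ C' = 0 ∧ D = -1 ∧ D' = 1 ∧ τ = 0) := by
  have h := fun c : ℤ => sq_nonneg c
  obtain ⟨a1, a2⟩ := sq_bound A (by linarith [h B, h B', h C, h C', h D, h D', h τ])
  obtain ⟨b1, b2⟩ := sq_bound B (by linarith [h A, h B', h C, h C', h D, h D', h τ])
  obtain ⟨c1, c2⟩ := sq_bound C (by linarith [h B, h B', h A, h C', h D, h D', h τ])
  obtain rfl : B' = 1 - A - B := by omega
  obtain rfl : C' = - A - C := by omega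
  obtain rfl : D = - B - C := by omega
  obtain rfl : D' = - A - (- B - C) := by omega
  obtain rfl : τ = 1 - B + (1 - A - B) := by omega
  interval_cases A <;> interval_cases B <;> interval_cases C <;> first | (exfalso; revert hs; norm_num; done) | norm_num

theorem int_y3 (A B B' C C' D D' τ : ℤ) (h1 : A + B + B' = 0) (h2 : A + C + C' = 0) (h3 : A + D + D' = 1)
    (h4 : B + C + D = 0) (h5 : B - B' + τ = 1) (h6 : B - C + C' = 1)
    (hs : A ^ 2 + B ^ 2 + B' ^ 2 + C ^ 2 + C' ^ 2 + D ^ 2 + D' ^ 2 + τ ^ 2 ≤ 3) : False := by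
  have h := fun c : ℤ => sq_nonneg c
  obtain ⟨a1, a2⟩ := sq_bound A (by linarith [h B, h B', h C, h C', h D, h D', h τ])
  obtain ⟨b1, b2⟩ := sq_bound B (by linarith [h A, h B', h C, h C', h D, h D', h τ])
  obtain ⟨c1, c2⟩ := sq_bound C (by linarith [h B, h B', h A, h C', h D, h D', h τ])
  obtain rfl : B' = - A - B := by omega
  obtain rfl : C' = - A - C := by omega
  obtain rfl : D = - B - C := by omega
  obtain rfl : D' = 1 - A - (- B - C) := by omega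
  obtain rfl : τ = 1 - B + (- A - B) := by omega
  interval_cases A <;> interval_cases B <;> interval_cases C <;> first | omega | (revert hs; norm_num; done)

theorem int_y2 (A B B' C C' D D' τ : ℤ) (h1 : A + B + B' = 0) (h2 : A + C + C' = 1) (h3 : A + D + D' = 0)
    (h4 : B + C + D = 0) (h5 : B - B' + τ = 1) (h6 : B - D + D' = 1)
    (hs : A ^ 2 + B ^ 2 + B' ^ 2 + C ^ 2 + C' ^ 2 + D ^ 2 + D' ^ 2 + τ ^ 2 ≤ 3) : False := by
  have h := fun c : ℤ => sq_nonneg c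
  obtain ⟨a1, a2⟩ := sq_bound A (by linarith [h B, h B', h C, h C', h D, h D', h τ])
  obtain ⟨b1, b2⟩ := sq_bound B (by linarith [h A, h B', h C, h C', h D, h D', h τ])
  obtain ⟨c1, c2⟩ := sq_bound C (by linarith [h B, h B', h A, h C', h D, h D', h τ])
  obtain rfl : B' = - A - B := by omega
  obtain rfl : C' = 1 - A - C := by omega
  obtain rfl : D = - B - C := by omega
  obtain rfl : D' = - A - (- B - C) := by omega
  obtain rfl : τ = 1 - B + (- A - B) := by omega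
  interval_cases A <;> interval_cases B <;> interval_cases C <;> first | omega | (revert hs; norm_num; done)

/-- Orthonormal families. -/
def OrthF {ι : Type*} [DecidableEq ι] (u : ι → E → ℤ) : Prop :=
  ∀ i j, u i ⬝ᵥ u j = if i = j then 1 else 0

theorem OrthF.comp {ι κ : Type*} [DecidableEq ι] [DecidableEq κ] {u : ι → E → ℤ} (hu : OrthF u) {σ : κ → ι}
    (hσ : Function.Injective σ) : OrthF (u ∘ σ) := by
  intro i j
  simp only [Function.comp, hu (σ i) (σ j), hσ.eq_iff]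

/-- Adjoining a vector to an orthonormal family. -/
theorem orth_option {ι : Type*} [DecidableEq ι] {u : ι → E → ℤ} (hu : OrthF u) {t : E → ℤ} (ht : IsU t)
    (hut : ∀ i, u i ⬝ᵥ t = 0) : OrthF (fun o : Option ι => o.elim t u) := by
  intro i j
  cases i with
  | none =>
    cases j with
    | none => simpa [IsU] using ht
    | some j => simpa [dotProduct_comm t] using hut j
  | some i =>
    cases j with
    | none => simpa using hut i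
    | some j => simpa using hu i j

theorem bessel8 {u : Fin 7 → E → ℤ} (hu : OrthF u) {t : E → ℤ} (ht : IsU t)
    (hut : ∀ i, u i ⬝ᵥ t = 0) (v : E → ℤ) :
    (v ⬝ᵥ u 0) ^ 2 + (v ⬝ᵥ u 1) ^ 2 + (v ⬝ᵥ u 2) ^ 2 + (v ⬝ᵥ u 3) ^ 2 + (v ⬝ᵥ u 4) ^ 2 + (v ⬝ᵥ u 5) ^ 2 +
      (v ⬝ᵥ u 6) ^ 2 + (v ⬝ᵥ t) ^ 2 ≤ v ⬝ᵥ v := by
  have h := bessel _ (orth_option hu ht hut) v
  simp only [Fintype.sum_option, Option.elim, Fin.sum_univ_seven] at h
  linarith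

theorem eq_bessel8 {u : Fin 7 → E → ℤ} (hu : OrthF u) {t : E → ℤ} (ht : IsU t)
    (hut : ∀ i, u i ⬝ᵥ t = 0) (v : E → ℤ)
    (h : v ⬝ᵥ v = (v ⬝ᵥ u 0) ^ 2 + (v ⬝ᵥ u 1) ^ 2 + (v ⬝ᵥ u 2) ^ 2 + (v ⬝ᵥ u 3) ^ 2 + (v ⬝ᵥ u 4) ^ 2 +
      (v ⬝ᵥ u 5) ^ 2 + (v ⬝ᵥ u 6) ^ 2 + (v ⬝ᵥ t) ^ 2) :
    v = (v ⬝ᵥ t) • t + ((v ⬝ᵥ u 0) • u 0 + (v ⬝ᵥ u 1) • u 1 + (v ⬝ᵥ u 2) • u 2 + (v ⬝ᵥ u 3) • u 3 +
      (v ⬝ᵥ u 4) • u 4 + (v ⬝ᵥ u 5) • u 5 + (v ⬝ᵥ u 6) • u 6) := by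
  have h1 := eq_of_bessel _ (orth_option hu ht hut) v (by
    simp only [Fintype.sum_option, Option.elim, Fin.sum_univ_seven]
    linarith)
  simpa only [Fintype.sum_option, Option.elim, Fin.sum_univ_seven] using h1

/-- The essential case of the exclusion of a line meeting three concurrent lines, when the vector attached
to the fourth line is `u 1 - u 2 + t`. -/
theorem caseA_core {u : Fin 7 → E → ℤ} (hu : OrthF u) {t : E → ℤ} (ht : IsU t) (hut : ∀ i, u i ⬝ᵥ t = 0)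
    {y1 y2 y3 : E → ℤ} (h11 : y1 ⬝ᵥ y1 = 3) (h22 : y2 ⬝ᵥ y2 = 3) (h33 : y3 ⬝ᵥ y3 = 3)
    (h12 : y2 ⬝ᵥ y1 = 1) (h13 : y3 ⬝ᵥ y1 = 1)
    (y1L1 : y1 ⬝ᵥ u 0 + y1 ⬝ᵥ u 1 + y1 ⬝ᵥ u 2 = 1) (y1L2 : y1 ⬝ᵥ u 0 + y1 ⬝ᵥ u 3 + y1 ⬝ᵥ u 4 = 0)
    (y1L3 : y1 ⬝ᵥ u 0 + y1 ⬝ᵥ u 5 + y1 ⬝ᵥ u 6 = 0) (y1L4 : y1 ⬝ᵥ u 1 + y1 ⬝ᵥ u 3 + y1 ⬝ᵥ u 5 = 0)
    (y1y : y1 ⬝ᵥ u 1 - y1 ⬝ᵥ u 2 + y1 ⬝ᵥ t = 1)
    (y2L1 : y2 ⬝ᵥ u 0 + y2 ⬝ᵥ u 1 + y2 ⬝ᵥ u 2 = 0) (y2L2 : y2 ⬝ᵥ u 0 + y2 ⬝ᵥ u 3 + y2 ⬝ᵥ u 4 = 1)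
    (y2L3 : y2 ⬝ᵥ u 0 + y2 ⬝ᵥ u 5 + y2 ⬝ᵥ u 6 = 0) (y2L4 : y2 ⬝ᵥ u 1 + y2 ⬝ᵥ u 3 + y2 ⬝ᵥ u 5 = 0)
    (y2y : y2 ⬝ᵥ u 1 - y2 ⬝ᵥ u 2 + y2 ⬝ᵥ t = 1)
    (y3L1 : y3 ⬝ᵥ u 0 + y3 ⬝ᵥ u 1 + y3 ⬝ᵥ u 2 = 0) (y3L2 : y3 ⬝ᵥ u 0 + y3 ⬝ᵥ u 3 + y3 ⬝ᵥ u 4 = 0)
    (y3L3 : y3 ⬝ᵥ u 0 + y3 ⬝ᵥ u 5 + y3 ⬝ᵥ u 6 = 1) (y3L4 : y3 ⬝ᵥ u 1 + y3 ⬝ᵥ u 3 + y3 ⬝ᵥ u 5 = 0)
    (y3y : y3 ⬝ᵥ u 1 - y3 ⬝ᵥ u 2 + y3 ⬝ᵥ t = 1) : False := by
  have b1 := bessel8 hu ht hut y1
  have b2 := bessel8 hu ht hut y2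
  have b3 := bessel8 hu ht hut y3
  rw [h11] at b1
  rw [h22] at b2
  rw [h33] at b3
  rcases int_y1 _ _ _ _ _ _ _ _ y1L1 y1L2 y1L3 y1L4 y1y b1 with
    ⟨a0, a1, a2, a3, a4, a5, a6, a7⟩ | ⟨a0, a1, a2, a3, a4, a5, a6, a7⟩
  · have e := eq_bessel8 hu ht hut y1 (by rw [h11, a0, a1, a2, a3, a4, a5, a6, a7]; norm_num)
    rw [a0, a1, a2, a3, a4, a5, a6, a7] at e
    have : y3 ⬝ᵥ y1 = y3 ⬝ᵥ u 1 - y3 ⬝ᵥ u 3 + y3 ⬝ᵥ u 4 := by
      rw [e]
      simp only [dotProduct_add, dotProduct_smul, smul_eq_mul]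
      ring
    exact int_y3 _ _ _ _ _ _ _ _ y3L1 y3L2 y3L3 y3L4 y3y (by rw [← this, h13]) b3
  · have e := eq_bessel8 hu ht hut y1 (by rw [h11, a0, a1, a2, a3, a4, a5, a6, a7]; norm_num)
    rw [a0, a1, a2, a3, a4, a5, a6, a7] at e
    have : y2 ⬝ᵥ y1 = y2 ⬝ᵥ u 1 - y2 ⬝ᵥ u 5 + y2 ⬝ᵥ u 6 := by
      rw [e]
      simp only [dotProduct_add, dotProduct_smul, smul_eq_mul]
      ring
    exact int_y2 _ _ _ _ _ _ _ _ y2L1 y2L2 y2L3 y2L4 y2y (by rw [← this, h12]) b2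

/-- Given a unit decomposition candidate: if `v` has norm three, inner product 1 with `a` and `-1` with
`b`, and `a`, `b` are orthonormal, then `t = v - a + b` is a unit orthogonal to `a` and `b`. -/
theorem unit_of_coords {v a b : E → ℤ} (hv : v ⬝ᵥ v = 3) (ha : IsU a) (hb : IsU b) (hab : a ⬝ᵥ b = 0)
    (h1 : v ⬝ᵥ a = 1) (h2 : v ⬝ᵥ b = -1) : IsU (v - a + b) := by
  unfold IsU at *
  simp only [sub_dotProduct, dotProduct_sub, add_dotProduct, dotProduct_add]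
  rw [dotProduct_comm a v, dotProduct_comm b v, dotProduct_comm b a, h1, h2, hv, ha, hb, hab]
  norm_num

/-- No line `L₄` can meet three concurrent lines outside their common point, in presence of the dual
vectors `y`. -/
theorem caseA {u : Fin 7 → E → ℤ} (hu : OrthF u)
    {y1 y2 y3 y4 : E → ℤ} (h11 : y1 ⬝ᵥ y1 = 3) (h22 : y2 ⬝ᵥ y2 = 3) (h33 : y3 ⬝ᵥ y3 = 3)
    (h44 : y4 ⬝ᵥ y4 = 3)
    (h12 : y1 ⬝ᵥ y2 = 1) (h13 : y1 ⬝ᵥ y3 = 1) (h23 : y2 ⬝ᵥ y3 = 1)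
    (h14 : y1 ⬝ᵥ y4 = 1) (h24 : y2 ⬝ᵥ y4 = 1) (h34 : y3 ⬝ᵥ y4 = 1)
    (y1L1 : y1 ⬝ᵥ u 0 + y1 ⬝ᵥ u 1 + y1 ⬝ᵥ u 2 = 1) (y1L2 : y1 ⬝ᵥ u 0 + y1 ⬝ᵥ u 3 + y1 ⬝ᵥ u 4 = 0)
    (y1L3 : y1 ⬝ᵥ u 0 + y1 ⬝ᵥ u 5 + y1 ⬝ᵥ u 6 = 0) (y1L4 : y1 ⬝ᵥ u 1 + y1 ⬝ᵥ u 3 + y1 ⬝ᵥ u 5 = 0)
    (y2L1 : y2 ⬝ᵥ u 0 + y2 ⬝ᵥ u 1 + y2 ⬝ᵥ u 2 = 0) (y2L2 : y2 ⬝ᵥ u 0 + y2 ⬝ᵥ u 3 + y2 ⬝ᵥ u 4 = 1)
    (y2L3 : y2 ⬝ᵥ u 0 + y2 ⬝ᵥ u 5 + y2 ⬝ᵥ u 6 = 0) (y2L4 : y2 ⬝ᵥ u 1 + y2 ⬝ᵥ u 3 + y2 ⬝ᵥ u 5 = 0)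
    (y3L1 : y3 ⬝ᵥ u 0 + y3 ⬝ᵥ u 1 + y3 ⬝ᵥ u 2 = 0) (y3L2 : y3 ⬝ᵥ u 0 + y3 ⬝ᵥ u 3 + y3 ⬝ᵥ u 4 = 0)
    (y3L3 : y3 ⬝ᵥ u 0 + y3 ⬝ᵥ u 5 + y3 ⬝ᵥ u 6 = 1) (y3L4 : y3 ⬝ᵥ u 1 + y3 ⬝ᵥ u 3 + y3 ⬝ᵥ u 5 = 0)
    (y4L1 : y4 ⬝ᵥ u 0 + y4 ⬝ᵥ u 1 + y4 ⬝ᵥ u 2 = 0) (y4L2 : y4 ⬝ᵥ u 0 + y4 ⬝ᵥ u 3 + y4 ⬝ᵥ u 4 = 0)
    (y4L3 : y4 ⬝ᵥ u 0 + y4 ⬝ᵥ u 5 + y4 ⬝ᵥ u 6 = 0) (y4L4 : y4 ⬝ᵥ u 1 + y4 ⬝ᵥ u 3 + y4 ⬝ᵥ u 5 = 1) : False := by
  have c := fun a b : E → ℤ => dotProduct_comm a b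
  have bess : ∀ v : E → ℤ, (v ⬝ᵥ u 0) ^ 2 + (v ⬝ᵥ u 1) ^ 2 + (v ⬝ᵥ u 2) ^ 2 + (v ⬝ᵥ u 3) ^ 2 +
      (v ⬝ᵥ u 4) ^ 2 + (v ⬝ᵥ u 5) ^ 2 + (v ⬝ᵥ u 6) ^ 2 ≤ v ⬝ᵥ v := by
    intro v
    have := bessel u hu v
    simpa only [Fin.sum_univ_seven] using this
  have hU : ∀ i, IsU (u i) := fun i => by
    have := hu i i
    simpa [IsU] using this
  have hO : ∀ i j, i ≠ j → u i ⬝ᵥ u j = 0 := fun i j hij => by
    have := hu i j
    rwa [if_neg hij] at this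
  have b4 := bess y4
  rw [h44] at b4
  rcases int_y4 _ _ _ _ _ _ _ y4L1 y4L2 y4L3 y4L4 b4 with
    ⟨a0, a1, a2, a3, a4, a5, a6⟩ | ⟨a0, a1, a2, a3, a4, a5, a6⟩ | ⟨a0, a1, a2, a3, a4, a5, a6⟩
  · -- `y4 = u 1 - u 2 + t`
    have ht := unit_of_coords h44 (hU 1) (hU 2) (hO 1 2 (by decide)) a1 a2
    have hut : ∀ i, u i ⬝ᵥ (y4 - u 1 + u 2) = 0 := by
      intro i
      simp only [dotProduct_add, dotProduct_sub]
      rw [hu i 1, hu i 2, c (u i) y4]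
      fin_cases i <;> simp [*]
    refine caseA_core hu ht hut h11 h22 h33 (by rw [c]; exact h12) (by rw [c]; exact h13)
      y1L1 y1L2 y1L3 y1L4 ?_ y2L1 y2L2 y2L3 y2L4 ?_ y3L1 y3L2 y3L3 y3L4 ?_ <;>
    · simp only [dotProduct_add, dotProduct_sub]
      omega
  · -- `y4 = u 3 - u 4 + t`
    have ht := unit_of_coords h44 (hU 3) (hU 4) (hO 3 4 (by decide)) a3 a4
    have hut : ∀ i, u i ⬝ᵥ (y4 - u 3 + u 4) = 0 := by
      intro i
      simp only [dotProduct_add, dotProduct_sub]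
      rw [hu i 3, hu i 4, c (u i) y4]
      fin_cases i <;> simp [*]
    let σ : Fin 7 → Fin 7 := ![0, 3, 4, 1, 2, 5, 6]
    have hσ : Function.Injective σ := by decide
    have hu' := hu.comp hσ
    have s0 : (u ∘ σ) 0 = u 0 := rfl
    have s1 : (u ∘ σ) 1 = u 3 := rfl
    have s2 : (u ∘ σ) 2 = u 4 := rfl
    have s3 : (u ∘ σ) 3 = u 1 := rfl
    have s4 : (u ∘ σ) 4 = u 2 := rfl
    have s5 : (u ∘ σ) 5 = u 5 := rfl
    have s6 : (u ∘ σ) 6 = u 6 := rfl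
    refine caseA_core (u := u ∘ σ) hu' ht (fun i => hut (σ i)) h22 h11 h33 h12
      (by rw [c]; exact h23) ?_ ?_ ?_ ?_ ?_ ?_ ?_ ?_ ?_ ?_ ?_ ?_ ?_ ?_ ?_ <;>
    · simp only [s0, s1, s2, s3, s4, s5, s6, dotProduct_add, dotProduct_sub]
      try rw [c y2 y4, c y4 y2]
      try rw [c y1 y4, c y4 y1]
      omega
  · -- `y4 = u 5 - u 6 + t`
    have ht := unit_of_coords h44 (hU 5) (hU 6) (hO 5 6 (by decide)) a5 a6
    have hut : ∀ i, u i ⬝ᵥ (y4 - u 5 + u 6) = 0 := by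
      intro i
      simp only [dotProduct_add, dotProduct_sub]
      rw [hu i 5, hu i 6, c (u i) y4]
      fin_cases i <;> simp [*]
    let σ : Fin 7 → Fin 7 := ![0, 5, 6, 3, 4, 1, 2]
    have hσ : Function.Injective σ := by decide
    have hu' := hu.comp hσ
    have s0 : (u ∘ σ) 0 = u 0 := rfl
    have s1 : (u ∘ σ) 1 = u 5 := rfl
    have s2 : (u ∘ σ) 2 = u 6 := rfl
    have s3 : (u ∘ σ) 3 = u 3 := rfl
    have s4 : (u ∘ σ) 4 = u 4 := rfl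
    have s5 : (u ∘ σ) 5 = u 1 := rfl
    have s6 : (u ∘ σ) 6 = u 2 := rfl
    refine caseA_core (u := u ∘ σ) hu' ht (fun i => hut (σ i)) h33 h22 h11 h23
      h13 ?_ ?_ ?_ ?_ ?_ ?_ ?_ ?_ ?_ ?_ ?_ ?_ ?_ ?_ ?_ <;>
    · simp only [s0, s1, s2, s3, s4, s5, s6, dotProduct_add, dotProduct_sub]
      omega


/-- A triangle of lines, a fourth line and the dual vectors cannot coexist. -/
theorem tri {u : Fin 6 → E → ℤ} (hu : OrthF u) {T3 : E → ℤ} (hT : T3 ⬝ᵥ T3 = 3)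
    (h0 : T3 ⬝ᵥ u 0 + T3 ⬝ᵥ u 1 + T3 ⬝ᵥ u 2 = 1) (h1 : T3 ⬝ᵥ u 0 + T3 ⬝ᵥ u 3 + T3 ⬝ᵥ u 4 = 1)
    (h2 : T3 ⬝ᵥ u 1 + T3 ⬝ᵥ u 3 + T3 ⬝ᵥ u 5 = 1) {y : Fin 4 → E → ℤ}
    (hy : ∀ i j, y i ⬝ᵥ y j = if i = j then 3 else 1)
    (hy0 : ∀ i, y i ⬝ᵥ u 0 + y i ⬝ᵥ u 1 + y i ⬝ᵥ u 2 = if i = 0 then 1 else 0)
    (hy1 : ∀ i, y i ⬝ᵥ u 0 + y i ⬝ᵥ u 3 + y i ⬝ᵥ u 4 = if i = 1 then 1 else 0)
    (hy2 : ∀ i, y i ⬝ᵥ u 1 + y i ⬝ᵥ u 3 + y i ⬝ᵥ u 5 = if i = 2 then 1 else 0)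
    (hy3 : ∀ i, y i ⬝ᵥ T3 = if i = 3 then 1 else 0) : False := by
  have c := fun a b : E → ℤ => dotProduct_comm a b
  have hU : ∀ i, IsU (u i) := fun i => by
    have := hu i i
    simpa [IsU] using this
  have hO : ∀ i j, i ≠ j → u i ⬝ᵥ u j = 0 := fun i j hij => by
    have := hu i j
    rwa [if_neg hij] at this
  have h00 := (hy 0 0).trans (if_pos rfl)
  have h11 := (hy 1 1).trans (if_pos rfl)
  have h22 := (hy 2 2).trans (if_pos rfl)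
  have h33 := (hy 3 3).trans (if_pos rfl)
  have h01 := (hy 0 1).trans (if_neg (by decide))
  have h02 := (hy 0 2).trans (if_neg (by decide))
  have h03 := (hy 0 3).trans (if_neg (by decide))
  have h12 := (hy 1 2).trans (if_neg (by decide))
  have h13 := (hy 1 3).trans (if_neg (by decide))
  have h23 := (hy 2 3).trans (if_neg (by decide))
  have h10 : y 1 ⬝ᵥ y 0 = 1 := by rw [c]; exact h01
  have h20 : y 2 ⬝ᵥ y 0 = 1 := by rw [c]; exact h02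
  have h21 : y 2 ⬝ᵥ y 1 = 1 := by rw [c]; exact h12
  have h30 : y 3 ⬝ᵥ y 0 = 1 := by rw [c]; exact h03
  have h31 : y 3 ⬝ᵥ y 1 = 1 := by rw [c]; exact h13
  have h32 : y 3 ⬝ᵥ y 2 = 1 := by rw [c]; exact h23
  have a00 := (hy0 0).trans (if_pos rfl)
  have a10 := (hy0 1).trans (if_neg (by decide))
  have a20 := (hy0 2).trans (if_neg (by decide))
  have a30 := (hy0 3).trans (if_neg (by decide))
  have a01 := (hy1 0).trans (if_neg (by decide))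
  have a11 := (hy1 1).trans (if_pos rfl)
  have a21 := (hy1 2).trans (if_neg (by decide))
  have a31 := (hy1 3).trans (if_neg (by decide))
  have a02 := (hy2 0).trans (if_neg (by decide))
  have a12 := (hy2 1).trans (if_neg (by decide))
  have a22 := (hy2 2).trans (if_pos rfl)
  have a32 := (hy2 3).trans (if_neg (by decide))
  have a03 := (hy3 0).trans (if_neg (by decide))
  have a13 := (hy3 1).trans (if_neg (by decide))
  have a23 := (hy3 2).trans (if_neg (by decide))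
  have a33 := (hy3 3).trans (if_pos rfl)
  have o1 := overlap (hU 0) (hU 1) (hU 2) (hO _ _ (by decide)) (hO _ _ (by decide)) (hO _ _ (by decide)) rfl hT
    (by simp only [dotProduct_add]; exact h0) (y := y 0) (by simp only [dotProduct_add]; exact a00) a03
  have o2 := overlap (hU 0) (hU 3) (hU 4) (hO _ _ (by decide)) (hO _ _ (by decide)) (hO _ _ (by decide)) rfl hT
    (by simp only [dotProduct_add]; exact h1) (y := y 1) (by simp only [dotProduct_add]; exact a11) a13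
  have o3 := overlap (hU 1) (hU 3) (hU 5) (hO _ _ (by decide)) (hO _ _ (by decide)) (hO _ _ (by decide)) rfl hT
    (by simp only [dotProduct_add]; exact h2) (y := y 2) (by simp only [dotProduct_add]; exact a22) a23
  -- the new unit `T3 - a - b`
  have new : ∀ a b : Fin 6, a ≠ b → T3 ⬝ᵥ u a = 1 → T3 ⬝ᵥ u b = 1 → IsU (T3 - u a - u b) := by
    intro a b hab h1 h2
    unfold IsU
    simp only [sub_dotProduct, dotProduct_sub]
    rw [c (u a) T3, c (u b) T3, c (u b) (u a), hO a b hab, h1, h2, hT, show u a ⬝ᵥ u a = 1 from hU a,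
      show u b ⬝ᵥ u b = 1 from hU b]
    norm_num
  have newO : ∀ a b i : Fin 6, a ≠ b → T3 ⬝ᵥ u a = 1 → T3 ⬝ᵥ u b = 1 → (i ≠ a → i ≠ b → T3 ⬝ᵥ u i = 0) →
      u i ⬝ᵥ (T3 - u a - u b) = 0 := by
    intro a b i hab h1 h2 h3
    simp only [dotProduct_sub]
    rw [c (u i) T3, hu i a, hu i b]
    by_cases hia : i = a
    · subst hia
      rw [if_pos rfl, if_neg hab, h1]
      norm_num
    · by_cases hib : i = b
      · subst hib
        rw [if_neg hia, if_pos rfl, h2]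
        norm_num
      · rw [if_neg hia, if_neg hib, h3 hia hib]
        norm_num
  rcases o1 with ⟨x1, p0, q0⟩ | ⟨x0, p1, q0⟩ | ⟨x0, p0, q1⟩
  · -- `T3` passes through `x`
    obtain ⟨-, r0, s0⟩ : T3 ⬝ᵥ u 0 = 1 ∧ T3 ⬝ᵥ u 3 = 0 ∧ T3 ⬝ᵥ u 4 = 0 := by
      rcases o2 with h | h | h <;> omega
    have w1 : T3 ⬝ᵥ u 5 = 1 := by omega
    have ht := new 0 5 (by decide) x1 w1
    have hut : ∀ i, u i ⬝ᵥ (T3 - u 0 - u 5) = 0 := fun i => newO 0 5 i (by decide) x1 w1 (by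
      intro h3 h4
      fin_cases i
      · exact absurd rfl h3
      · exact p0
      · exact q0
      · exact r0
      · exact s0
      · exact absurd rfl h4)
    let σ : Fin 7 → Option (Fin 6) := ![some 0, some 1, some 2, some 3, some 4, some 5, none]
    have hσ : Function.Injective σ := by decide
    have hu' := (orth_option hu ht hut).comp hσ
    let U := (fun o : Option (Fin 6) => o.elim (T3 - u 0 - u 5) u) ∘ σ
    have U0 : U 0 = u 0 := rfl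
    have U1 : U 1 = u 1 := rfl
    have U2 : U 2 = u 2 := rfl
    have U3 : U 3 = u 3 := rfl
    have U4 : U 4 = u 4 := rfl
    have U5 : U 5 = u 5 := rfl
    have U6 : U 6 = T3 - u 0 - u 5 := rfl
    refine caseA (u := U) hu' h00 h11 h33 h22 h01 h03 h13 h02 h12 h32 ?_ ?_ ?_ ?_ ?_ ?_ ?_ ?_ ?_ ?_ ?_ ?_ ?_ ?_ ?_ ?_ <;>
    · simp only [U0, U1, U2, U3, U4, U5, U6, dotProduct_sub]
      omega
  · -- `T3` passes through `p`, and then through `s`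
    obtain ⟨-, r0, s1⟩ : T3 ⬝ᵥ u 0 = 0 ∧ T3 ⬝ᵥ u 3 = 0 ∧ T3 ⬝ᵥ u 4 = 1 := by
      rcases o2 with h | h | h <;> omega
    have w0 : T3 ⬝ᵥ u 5 = 0 := by omega
    have ht := new 1 4 (by decide) p1 s1
    have hut : ∀ i, u i ⬝ᵥ (T3 - u 1 - u 4) = 0 := fun i => newO 1 4 i (by decide) p1 s1 (by
      intro h3 h4
      fin_cases i
      · exact x0
      · exact absurd rfl h3
      · exact q0
      · exact r0
      · exact absurd rfl h4
      · exact w0)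
    let σ : Fin 7 → Option (Fin 6) := ![some 1, some 0, some 2, some 3, some 5, some 4, none]
    have hσ : Function.Injective σ := by decide
    have hu' := (orth_option hu ht hut).comp hσ
    let U := (fun o : Option (Fin 6) => o.elim (T3 - u 1 - u 4) u) ∘ σ
    have U0 : U 0 = u 1 := rfl
    have U1 : U 1 = u 0 := rfl
    have U2 : U 2 = u 2 := rfl
    have U3 : U 3 = u 3 := rfl
    have U4 : U 4 = u 5 := rfl
    have U5 : U 5 = u 4 := rfl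
    have U6 : U 6 = T3 - u 1 - u 4 := rfl
    refine caseA (u := U) hu' h00 h22 h33 h11 h02 h03 h23 h01 h21 h31 ?_ ?_ ?_ ?_ ?_ ?_ ?_ ?_ ?_ ?_ ?_ ?_ ?_ ?_ ?_ ?_ <;>
    · simp only [U0, U1, U2, U3, U4, U5, U6, dotProduct_sub]
      omega
  · -- `T3` passes through `q`
    rcases o2 with ⟨h, _, _⟩ | ⟨_, r1, s0⟩ | ⟨_, r0, s1⟩
    · omega
    · have w0 : T3 ⬝ᵥ u 5 = 0 := by omega
      have ht := new 2 3 (by decide) q1 r1
      have hut : ∀ i, u i ⬝ᵥ (T3 - u 2 - u 3) = 0 := fun i => newO 2 3 i (by decide) q1 r1 (by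
        intro h3 h4
        fin_cases i
        · exact x0
        · exact p0
        · exact absurd rfl h3
        · exact absurd rfl h4
        · exact s0
        · exact w0)
      let σ : Fin 7 → Option (Fin 6) := ![some 3, some 0, some 4, some 1, some 5, some 2, none]
      have hσ : Function.Injective σ := by decide
      have hu' := (orth_option hu ht hut).comp hσ
      let U := (fun o : Option (Fin 6) => o.elim (T3 - u 2 - u 3) u) ∘ σ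
      have U0 : U 0 = u 3 := rfl
      have U1 : U 1 = u 0 := rfl
      have U2 : U 2 = u 4 := rfl
      have U3 : U 3 = u 1 := rfl
      have U4 : U 4 = u 5 := rfl
      have U5 : U 5 = u 2 := rfl
      have U6 : U 6 = T3 - u 2 - u 3 := rfl
      refine caseA (u := U) hu' h11 h22 h33 h00 h12 h13 h23 h10 h20 h30 ?_ ?_ ?_ ?_ ?_ ?_ ?_ ?_ ?_ ?_ ?_ ?_ ?_ ?_ ?_ ?_ <;>
      · simp only [U0, U1, U2, U3, U4, U5, U6, dotProduct_sub]
        omega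
    · -- the Pasch configuration
      have w1 : T3 ⬝ᵥ u 5 = 1 := by omega
      have e : T3 = u 2 + u 4 + u 5 := by
        have hz : (T3 - (u 2 + u 4 + u 5)) ⬝ᵥ (T3 - (u 2 + u 4 + u 5)) = 0 := by
          simp only [sub_dotProduct, dotProduct_sub, add_dotProduct, dotProduct_add]
          rw [c (u 2) T3, c (u 4) T3, c (u 5) T3, c (u 4) (u 2), c (u 5) (u 2), c (u 5) (u 4), q1, s1, w1, hT,
            hO 2 4 (by decide), hO 2 5 (by decide), hO 4 5 (by decide), show u 2 ⬝ᵥ u 2 = 1 from hU 2,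
            show u 4 ⬝ᵥ u 4 = 1 from hU 4, show u 5 ⬝ᵥ u 5 = 1 from hU 5]
          norm_num
        exact sub_eq_zero.1 (eq_zero_of_self hz)
      rw [e] at a03
      simp only [dotProduct_add] at a03
      omega

end CaseA


section Row

variable {J : Type*} [DecidableEq J]

/-- A row of the array together with a second row. -/
structure Row (T y : J → E → ℤ) : Prop where
  hT : ∀ j j', T j ⬝ᵥ T j' = if j = j' then 3 else 1
  hy : ∀ j j', y j ⬝ᵥ y j' = if j = j' then 3 else 1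
  hTy : ∀ j j', y j ⬝ᵥ T j' = if j = j' then 1 else 0

theorem Row.comp {J' : Type*} [DecidableEq J'] {T y : J → E → ℤ} (R : Row T y) {σ : J' → J}
    (hσ : Function.Injective σ) : Row (T ∘ σ) (y ∘ σ) where
  hT j j' := by simp only [Function.comp, R.hT, hσ.eq_iff]
  hy j j' := by simp only [Function.comp, R.hy, hσ.eq_iff]
  hTy j j' := by simp only [Function.comp, R.hTy, hσ.eq_iff]

theorem orthF6 {a b c d e f : E → ℤ} (ha : IsU a) (hb : IsU b) (hc : IsU c) (hd : IsU d) (he : IsU e) (hf : IsU f)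
    (hab : a ⬝ᵥ b = 0) (hac : a ⬝ᵥ c = 0) (had : a ⬝ᵥ d = 0) (hae : a ⬝ᵥ e = 0) (haf : a ⬝ᵥ f = 0)
    (hbc : b ⬝ᵥ c = 0) (hbd : b ⬝ᵥ d = 0) (hbe : b ⬝ᵥ e = 0) (hbf : b ⬝ᵥ f = 0)
    (hcd : c ⬝ᵥ d = 0) (hce : c ⬝ᵥ e = 0) (hcf : c ⬝ᵥ f = 0)
    (hde : d ⬝ᵥ e = 0) (hdf : d ⬝ᵥ f = 0) (hef : e ⬝ᵥ f = 0) : OrthF ![a, b, c, d, e, f] := by
  have ha' : a ⬝ᵥ a = 1 := ha
  have hb' : b ⬝ᵥ b = 1 := hb
  have hc' : c ⬝ᵥ c = 1 := hc
  have hd' : d ⬝ᵥ d = 1 := hd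
  have he' : e ⬝ᵥ e = 1 := he
  have hf' : f ⬝ᵥ f = 1 := hf
  intro i j
  fin_cases i <;> fin_cases j <;>
    simp [ha', hb', hc', hd', he', hf', hab, hac, had, hae, haf, hbc, hbd, hbe, hbf, hcd, hce, hcf, hde, hdf, hef,
      dotProduct_comm b a, dotProduct_comm c a, dotProduct_comm d a, dotProduct_comm e a, dotProduct_comm f a,
      dotProduct_comm c b, dotProduct_comm d b, dotProduct_comm e b, dotProduct_comm f b,
      dotProduct_comm d c, dotProduct_comm e c, dotProduct_comm f c,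
      dotProduct_comm e d, dotProduct_comm f d, dotProduct_comm f e]

/-- The third line cannot meet the two first ones outside of their intersection, if there are a fourth
column and dual vectors. -/
theorem four_col_aux {T y : Fin 4 → E → ℤ} (R : Row T y) {x p q r s : E → ℤ}
    (hx : IsU x) (hp : IsU p) (hq : IsU q) (hr : IsU r) (hs : IsU s)
    (hxp : x ⬝ᵥ p = 0) (hxq : x ⬝ᵥ q = 0) (hxr : x ⬝ᵥ r = 0) (hxs : x ⬝ᵥ s = 0)
    (hpq : p ⬝ᵥ q = 0) (hpr : p ⬝ᵥ r = 0) (hps : p ⬝ᵥ s = 0)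
    (hqr : q ⬝ᵥ r = 0) (hqs : q ⬝ᵥ s = 0) (hrs : r ⬝ᵥ s = 0)
    (e0 : T 0 = x + p + q) (e1 : T 1 = x + r + s)
    (c0 : T 2 ⬝ᵥ x = 0) (c1 : T 2 ⬝ᵥ p = 1) (c2 : T 2 ⬝ᵥ q = 0) (c3 : T 2 ⬝ᵥ r = 1) (c4 : T 2 ⬝ᵥ s = 0) : False := by
  have c := fun a b : E → ℤ => dotProduct_comm a b
  have h22 := (R.hT 2 2).trans (if_pos rfl)
  have ha : p ⬝ᵥ p = 1 := hp
  have hb : r ⬝ᵥ r = 1 := hr
  have hw : IsU (T 2 - p - r) := by
    unfold IsU
    simp only [sub_dotProduct, dotProduct_sub]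
    rw [c p (T 2), c r (T 2), c r p, h22, c1, c3, ha, hb, hpr]
    norm_num
  have w0 : x ⬝ᵥ (T 2 - p - r) = 0 := by
    simp only [dotProduct_sub]
    rw [c x (T 2), c0, hxp, hxr]
    norm_num
  have w1 : p ⬝ᵥ (T 2 - p - r) = 0 := by
    simp only [dotProduct_sub]
    rw [c p (T 2), c1, hpr, ha]
    norm_num
  have w2 : q ⬝ᵥ (T 2 - p - r) = 0 := by
    simp only [dotProduct_sub]
    rw [c q (T 2), c2, hqr, c q p, hpq]
    norm_num
  have w3 : r ⬝ᵥ (T 2 - p - r) = 0 := by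
    simp only [dotProduct_sub]
    rw [c r (T 2), c3, c r p, hpr, hb]
    norm_num
  have w4 : s ⬝ᵥ (T 2 - p - r) = 0 := by
    simp only [dotProduct_sub]
    rw [c s (T 2), c4, c s r, hrs, c s p, hps]
    norm_num
  have hu := orthF6 hx hp hq hr hs hw hxp hxq hxr hxs w0 hpq hpr hps w1 hqr hqs w2 hrs w3 w4
  have e2 : ∀ v : E → ℤ, v ⬝ᵥ T 2 = v ⬝ᵥ p + v ⬝ᵥ r + v ⬝ᵥ (T 2 - p - r) := by
    intro v
    simp only [dotProduct_sub]
    ring
  have E0 : ∀ v : E → ℤ, v ⬝ᵥ T 0 = v ⬝ᵥ x + v ⬝ᵥ p + v ⬝ᵥ q := by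
    intro v
    rw [e0]
    simp only [dotProduct_add]
  have E1 : ∀ v : E → ℤ, v ⬝ᵥ T 1 = v ⬝ᵥ x + v ⬝ᵥ r + v ⬝ᵥ s := by
    intro v
    rw [e1]
    simp only [dotProduct_add]
  refine tri (u := ![x, p, q, r, s, T 2 - p - r]) hu (T3 := T 3) (y := y) ((R.hT 3 3).trans (if_pos rfl))
    ?_ ?_ ?_ R.hy ?_ ?_ ?_ ?_
  · exact ((E0 (T 3)).symm.trans (R.hT 3 0)).trans (if_neg (by decide))
  · exact ((E1 (T 3)).symm.trans (R.hT 3 1)).trans (if_neg (by decide))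
  · exact ((e2 (T 3)).symm.trans (R.hT 3 2)).trans (if_neg (by decide))
  · intro i
    have := (E0 (y i)).symm.trans (R.hTy i 0)
    exact this
  · intro i
    have := (E1 (y i)).symm.trans (R.hTy i 1)
    exact this
  · intro i
    have := (e2 (y i)).symm.trans (R.hTy i 2)
    exact this
  · intro i
    exact R.hTy i 3

/-- The third line passes through the intersection of the two first ones. -/
theorem four_col {T y : Fin 4 → E → ℤ} (R : Row T y) {x p q r s : E → ℤ}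
    (hx : IsU x) (hp : IsU p) (hq : IsU q) (hr : IsU r) (hs : IsU s)
    (hxp : x ⬝ᵥ p = 0) (hxq : x ⬝ᵥ q = 0) (hpq : p ⬝ᵥ q = 0)
    (hxr : x ⬝ᵥ r = 0) (hxs : x ⬝ᵥ s = 0) (hrs : r ⬝ᵥ s = 0)
    (e0 : T 0 = x + p + q) (e1 : T 1 = x + r + s) : T 2 ⬝ᵥ x = 1 := by
  have c := fun a b : E → ℤ => dotProduct_comm a b
  have hx' : x ⬝ᵥ x = 1 := hx
  have h10 : T 0 ⬝ᵥ T 1 = 1 := (R.hT 0 1).trans (if_neg (by decide))
  have t0x : T 0 ⬝ᵥ x = 1 := by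
    rw [e0]
    simp only [add_dotProduct]
    rw [hx', c p x, c q x, hxp, hxq]
    norm_num
  have ov := overlap hx hr hs hxr hxs hrs e1 ((R.hT 0 0).trans (if_pos rfl)) h10 (y := y 1)
    ((R.hTy 1 1).trans (if_pos rfl)) ((R.hTy 1 0).trans (if_neg (by decide)))
  obtain ⟨t0r, t0s⟩ : T 0 ⬝ᵥ r = 0 ∧ T 0 ⬝ᵥ s = 0 := by
    rcases ov with ⟨_, h, h'⟩ | ⟨h, _, _⟩ | ⟨h, _, _⟩
    · exact ⟨h, h'⟩
    · omega
    · omega
  obtain ⟨-, hpr, hqr⟩ := orth_of_sum3 hx hp hq hr hxp hxq hpq (z := r) (by rw [← e0, c]; exact t0r)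
  obtain ⟨-, hps, hqs⟩ := orth_of_sum3 hx hp hq hs hxp hxq hpq (z := s) (by rw [← e0, c]; exact t0s)
  rw [c] at hpr hqr hps hqs
  by_contra hne
  have o0 := overlap hx hp hq hxp hxq hpq e0 ((R.hT 2 2).trans (if_pos rfl))
    ((R.hT 2 0).trans (if_neg (by decide))) (y := y 0) ((R.hTy 0 0).trans (if_pos rfl))
    ((R.hTy 0 2).trans (if_neg (by decide)))
  have o1 := overlap hx hr hs hxr hxs hrs e1 ((R.hT 2 2).trans (if_pos rfl))
    ((R.hT 2 1).trans (if_neg (by decide))) (y := y 1) ((R.hTy 1 1).trans (if_pos rfl))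
    ((R.hTy 1 2).trans (if_neg (by decide)))
  rcases o0 with ⟨h, _, _⟩ | ⟨a0, a1, a2⟩ | ⟨a0, a1, a2⟩
  · exact hne h
  · rcases o1 with ⟨h, _, _⟩ | ⟨b0, b1, b2⟩ | ⟨b0, b1, b2⟩
    · exact hne h
    · exact four_col_aux R hx hp hq hr hs hxp hxq hxr hxs hpq hpr hps hqr hqs hrs e0 e1 a0 a1 a2 b1 b2
    · exact four_col_aux R hx hp hq hs hr hxp hxq hxs hxr hpq hps hpr hqs hqr (by rw [c]; exact hrs) e0
        (by rw [e1]; abel) a0 a1 a2 b2 b1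
  · rcases o1 with ⟨h, _, _⟩ | ⟨b0, b1, b2⟩ | ⟨b0, b1, b2⟩
    · exact hne h
    · exact four_col_aux R hx hq hp hr hs hxq hxp hxr hxs (by rw [c]; exact hpq) hqr hqs hpr hps hrs
        (by rw [e0]; abel) e1 a0 a2 a1 b1 b2
    · exact four_col_aux R hx hq hp hs hr hxq hxp hxs hxr (by rw [c]; exact hpq) hqs hqr hps hpr
        (by rw [c]; exact hrs) (by rw [e0]; abel) (by rw [e1]; abel) a0 a2 a1 b2 b1

/-- A unit of inner product one with a norm three vector is a summand. -/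
theorem split_unit {v x : E → ℤ} (hv : v ⬝ᵥ v = 3) (hx : IsU x) (h : v ⬝ᵥ x = 1) :
    ∃ p q : E → ℤ, IsU p ∧ IsU q ∧ x ⬝ᵥ p = 0 ∧ x ⬝ᵥ q = 0 ∧ p ⬝ᵥ q = 0 ∧ v = x + p + q := by
  have c := fun a b : E → ℤ => dotProduct_comm a b
  have hx' : x ⬝ᵥ x = 1 := hx
  have h2 : (v - x) ⬝ᵥ (v - x) = 2 := by
    simp only [sub_dotProduct, dotProduct_sub]
    rw [c x v, h, hv, hx']
    norm_num
  obtain ⟨p, q, hp, hq, hpq, he⟩ := decomp2 h2
  have h3 : x ⬝ᵥ (p + q) = 0 := by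
    rw [← he, dotProduct_sub, c x v, h, hx']
    norm_num
  obtain ⟨h4, h5⟩ := orth_of_sum2 hp hq hx hpq h3
  refine ⟨p, q, hp, hq, h4, h5, hpq, ?_⟩
  rw [add_assoc, ← he]
  abel

/-- The row star: with at least four columns and a second row, all the vectors of the row have a common
unit. -/
theorem row_star [Fintype J] {T y : J → E → ℤ} (R : Row T y) (hJ : 4 ≤ Fintype.card J) :
    ∃ x : E → ℤ, IsU x ∧ ∀ j, T j ⬝ᵥ x = 1 := by
  obtain ⟨j0, j1, h01⟩ : ∃ j0 j1 : J, j0 ≠ j1 := by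
    have : Nontrivial J := Fintype.one_lt_card_iff_nontrivial.1 (by omega)
    exact exists_pair_ne J
  have h00 := (R.hT j0 j0).trans (if_pos rfl)
  have h11 := (R.hT j1 j1).trans (if_pos rfl)
  obtain ⟨a, b, c, ha, hb, hc, hab, hac, hbc, he⟩ := decomp3 h00
  have ov := overlap ha hb hc hab hac hbc he h11 ((R.hT j1 j0).trans (if_neg h01.symm)) (y := y j0)
    ((R.hTy j0 j0).trans (if_pos rfl)) ((R.hTy j0 j1).trans (if_neg h01))
  have cm := fun a b : E → ℤ => dotProduct_comm a b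
  -- the common unit, and the first decomposition
  obtain ⟨x, p, q, hx, hp, hq, hxp, hxq, hpq, e0, t1x⟩ : ∃ x p q : E → ℤ, IsU x ∧ IsU p ∧ IsU q ∧ x ⬝ᵥ p = 0 ∧
      x ⬝ᵥ q = 0 ∧ p ⬝ᵥ q = 0 ∧ T j0 = x + p + q ∧ T j1 ⬝ᵥ x = 1 := by
    rcases ov with ⟨h, _, _⟩ | ⟨_, h, _⟩ | ⟨_, _, h⟩
    · exact ⟨a, b, c, ha, hb, hc, hab, hac, hbc, he, h⟩
    · exact ⟨b, a, c, hb, ha, hc, by rw [cm]; exact hab, hbc, hac, by rw [he]; abel, h⟩
    · exact ⟨c, a, b, hc, ha, hb, by rw [cm]; exact hac, by rw [cm]; exact hbc, hab, by rw [he]; abel, h⟩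
  obtain ⟨r, s, hr, hs, hxr, hxs, hrs, e1⟩ := split_unit h11 hx t1x
  have hx' : x ⬝ᵥ x = 1 := hx
  refine ⟨x, hx, fun j => ?_⟩
  by_cases hj0 : j = j0
  · subst hj0
    rw [e0]
    simp only [add_dotProduct]
    rw [hx', cm p x, cm q x, hxp, hxq]
    norm_num
  by_cases hj1 : j = j1
  · subst hj1
    exact t1x
  obtain ⟨j3, h3⟩ : ∃ j3 : J, j3 ∉ ({j0, j1, j} : Finset J) := by
    by_contra hall
    push Not at hall
    have : (Finset.univ : Finset J) ⊆ {j0, j1, j} := fun k _ => hall k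
    have h5 := Finset.card_le_card this
    have h6 : ({j0, j1, j} : Finset J).card ≤ 3 := Finset.card_le_three
    rw [Finset.card_univ] at h5
    omega
  simp only [Finset.mem_insert, Finset.mem_singleton, not_or] at h3
  obtain ⟨h30, h31, h3j⟩ := h3
  let σ : Fin 4 → J := ![j0, j1, j, j3]
  have hσ : Function.Injective σ := by
    intro a b hab
    fin_cases a <;> fin_cases b <;> first | rfl | (exfalso; revert hab; simp [σ, h01, h01.symm, hj0, Ne.symm hj0, hj1, Ne.symm hj1, h30, Ne.symm h30, h31, Ne.symm h31, h3j, Ne.symm h3j])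
  exact four_col (R.comp hσ) hx hp hq hr hs hxp hxq hpq hxr hxs hrs e0 e1

end Row


section Array

variable {I J : Type*} [DecidableEq I] [DecidableEq J]

theorem sq2 (P Q : ℤ) (h : P + Q ≠ 0) : 1 ≤ P ^ 2 + Q ^ 2 := by
  by_contra hlt
  have h1 : P ^ 2 + Q ^ 2 ≤ 0 := by omega
  have h2 : P ^ 2 = 0 := by nlinarith [sq_nonneg P, sq_nonneg Q]
  have h3 : Q ^ 2 = 0 := by nlinarith [sq_nonneg P, sq_nonneg Q]
  have h4 : P = 0 := by simpa using h2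
  have h5 : Q = 0 := by simpa using h3
  subst h4 h5
  exact h rfl

/-- For a row with a star, the summands of the lines are all orthonormal. -/
theorem star_orth {T y : J → E → ℤ} (R : Row T y) {x : E → ℤ} (hx : IsU x) {j j' : J} (hjj : j ≠ j')
    {p q : E → ℤ} (hp : IsU p) (hq : IsU q) (hxp : x ⬝ᵥ p = 0) (hxq : x ⬝ᵥ q = 0) (hpq : p ⬝ᵥ q = 0)
    (e : T j = x + p + q) (hTx : T j' ⬝ᵥ x = 1) : T j' ⬝ᵥ p = 0 ∧ T j' ⬝ᵥ q = 0 := by
  have ov := overlap hx hp hq hxp hxq hpq e ((R.hT j' j').trans (if_pos rfl))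
    ((R.hT j' j).trans (if_neg hjj.symm)) (y := y j) ((R.hTy j j).trans (if_pos rfl))
    ((R.hTy j j').trans (if_neg hjj))
  rcases ov with ⟨_, h, h'⟩ | ⟨h, _, _⟩ | ⟨h, _, _⟩
  · exact ⟨h, h'⟩
  · omega
  · omega

theorem int_clean (c P1 Q1 P2 Q2 P3 Q3 : ℤ) (hc : c ≠ 0) (h1 : c + P1 + Q1 = 0) (h2 : c + P2 + Q2 = 0)
    (h3 : c + P3 + Q3 = 0)
    (hs : c ^ 2 + P1 ^ 2 + Q1 ^ 2 + P2 ^ 2 + Q2 ^ 2 + P3 ^ 2 + Q3 ^ 2 ≤ 3) : False := by
  have a1 := sq2 P1 Q1 (by omega)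
  have a2 := sq2 P2 Q2 (by omega)
  have a3 := sq2 P3 Q3 (by omega)
  have a4 : 1 ≤ c ^ 2 := by
    have := sq2 c 0 (by simpa using hc)
    simpa using this
  omega

theorem orthF7 {a b c d e f g : E → ℤ} (ha : IsU a) (hb : IsU b) (hc : IsU c) (hd : IsU d) (he : IsU e) (hf : IsU f)
    (hg : IsU g)
    (hab : a ⬝ᵥ b = 0) (hac : a ⬝ᵥ c = 0) (had : a ⬝ᵥ d = 0) (hae : a ⬝ᵥ e = 0) (haf : a ⬝ᵥ f = 0) (hag : a ⬝ᵥ g = 0)
    (hbc : b ⬝ᵥ c = 0) (hbd : b ⬝ᵥ d = 0) (hbe : b ⬝ᵥ e = 0) (hbf : b ⬝ᵥ f = 0) (hbg : b ⬝ᵥ g = 0)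
    (hcd : c ⬝ᵥ d = 0) (hce : c ⬝ᵥ e = 0) (hcf : c ⬝ᵥ f = 0) (hcg : c ⬝ᵥ g = 0)
    (hde : d ⬝ᵥ e = 0) (hdf : d ⬝ᵥ f = 0) (hdg : d ⬝ᵥ g = 0) (hef : e ⬝ᵥ f = 0) (heg : e ⬝ᵥ g = 0)
    (hfg : f ⬝ᵥ g = 0) : OrthF ![a, b, c, d, e, f, g] := by
  have ha' : a ⬝ᵥ a = 1 := ha
  have hb' : b ⬝ᵥ b = 1 := hb
  have hc' : c ⬝ᵥ c = 1 := hc
  have hd' : d ⬝ᵥ d = 1 := hd
  have he' : e ⬝ᵥ e = 1 := he
  have hf' : f ⬝ᵥ f = 1 := hf
  have hg' : g ⬝ᵥ g = 1 := hg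
  intro i j
  fin_cases i <;> fin_cases j <;>
    simp [ha', hb', hc', hd', he', hf', hg', hab, hac, had, hae, haf, hag, hbc, hbd, hbe, hbf, hbg, hcd, hce, hcf, hcg,
      hde, hdf, hdg, hef, heg, hfg,
      dotProduct_comm b a, dotProduct_comm c a, dotProduct_comm d a, dotProduct_comm e a, dotProduct_comm f a,
      dotProduct_comm g a, dotProduct_comm c b, dotProduct_comm d b, dotProduct_comm e b, dotProduct_comm f b,
      dotProduct_comm g b, dotProduct_comm d c, dotProduct_comm e c, dotProduct_comm f c, dotProduct_comm g c,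
      dotProduct_comm e d, dotProduct_comm f d, dotProduct_comm g d, dotProduct_comm f e, dotProduct_comm g e,
      dotProduct_comm g f]

/-- In a row with a star and at least four columns, a vector orthogonal to three of the lines is
orthogonal to the common unit. -/
theorem clean {T y : J → E → ℤ} (R : Row T y) {x : E → ℤ} (hx : IsU x) (hTx : ∀ j, T j ⬝ᵥ x = 1)
    {j1 j2 j3 : J} (h12 : j1 ≠ j2) (h13 : j1 ≠ j3) (h23 : j2 ≠ j3) {v : E → ℤ} (hv : v ⬝ᵥ v = 3)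
    (h1 : v ⬝ᵥ T j1 = 0) (h2 : v ⬝ᵥ T j2 = 0) (h3 : v ⬝ᵥ T j3 = 0) : v ⬝ᵥ x = 0 := by
  have cm := fun a b : E → ℤ => dotProduct_comm a b
  obtain ⟨p1, q1, hp1, hq1, xp1, xq1, pq1, e1⟩ := split_unit ((R.hT j1 j1).trans (if_pos rfl)) hx (hTx j1)
  obtain ⟨p2, q2, hp2, hq2, xp2, xq2, pq2, e2⟩ := split_unit ((R.hT j2 j2).trans (if_pos rfl)) hx (hTx j2)
  obtain ⟨p3, q3, hp3, hq3, xp3, xq3, pq3, e3⟩ := split_unit ((R.hT j3 j3).trans (if_pos rfl)) hx (hTx j3)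
  -- the orthogonalities
  obtain ⟨a1, a2⟩ := star_orth R hx h12 hp1 hq1 xp1 xq1 pq1 e1 (hTx j2)
  obtain ⟨a3, a4⟩ := star_orth R hx h13 hp1 hq1 xp1 xq1 pq1 e1 (hTx j3)
  obtain ⟨a5, a6⟩ := star_orth R hx h23 hp2 hq2 xp2 xq2 pq2 e2 (hTx j3)
  have o := fun {a b c d : E → ℤ} (ha : IsU a) (hb : IsU b) (hc : IsU c) (hd : IsU d) (hab : a ⬝ᵥ b = 0)
    (hac : a ⬝ᵥ c = 0) (hbc : b ⬝ᵥ c = 0) (h : (a + b + c) ⬝ᵥ d = 0) =>
      orth_of_sum3 ha hb hc hd hab hac hbc (z := d) (by rw [cm]; exact h)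
  rw [e2] at a1 a2
  rw [e3] at a3 a4 a5 a6
  obtain ⟨-, p2p1, q2p1⟩ := o hx hp2 hq2 hp1 xp2 xq2 pq2 a1
  obtain ⟨-, p2q1, q2q1⟩ := o hx hp2 hq2 hq1 xp2 xq2 pq2 a2
  obtain ⟨-, p3p1, q3p1⟩ := o hx hp3 hq3 hp1 xp3 xq3 pq3 a3
  obtain ⟨-, p3q1, q3q1⟩ := o hx hp3 hq3 hq1 xp3 xq3 pq3 a4
  obtain ⟨-, p3p2, q3p2⟩ := o hx hp3 hq3 hp2 xp3 xq3 pq3 a5
  obtain ⟨-, p3q2, q3q2⟩ := o hx hp3 hq3 hq2 xp3 xq3 pq3 a6
  have hu : OrthF ![x, p1, q1, p2, q2, p3, q3] := orthF7 hx hp1 hq1 hp2 hq2 hp3 hq3 xp1 xq1 xp2 xq2 xp3 xq3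
    pq1 p2p1 q2p1 p3p1 q3p1 p2q1 q2q1 p3q1 q3q1 pq2 p3p2 q3p2 p3q2 q3q2 pq3
  have b := bessel _ hu v
  simp only [Fin.sum_univ_seven] at b
  rw [hv] at b
  rw [e1] at h1
  rw [e2] at h2
  rw [e3] at h3
  simp only [dotProduct_add] at h1 h2 h3
  by_contra hne
  refine int_clean (v ⬝ᵥ x) (v ⬝ᵥ p1) (v ⬝ᵥ q1) (v ⬝ᵥ p2) (v ⬝ᵥ q2) (v ⬝ᵥ p3) (v ⬝ᵥ q3) hne h1 h2 h3 ?_
  exact b

theorem int2 (A B : ℤ) (h : A + B = 1) (hs : A ^ 2 + B ^ 2 ≤ 2) : (A = 1 ∧ B = 0) ∨ (A = 0 ∧ B = 1) := by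
  have b1 : -1 ≤ A ∧ A ≤ 1 := sq_bound A (by nlinarith [sq_nonneg B])
  obtain ⟨b1, b2⟩ := b1
  obtain rfl : B = 1 - A := by omega
  interval_cases A <;> first | omega | (norm_num at hs; done)

/-- A family of norm two vectors with pairwise inner products one has a common unit, if its cardinality
is not three. -/
theorem col_star [Fintype I] (hI : Fintype.card I ≠ 3) {V : I → E → ℤ} (h2 : ∀ i, V i ⬝ᵥ V i = 2)
    (h1 : ∀ i i', i ≠ i' → V i ⬝ᵥ V i' = 1) {i0 i1 : I} (h01 : i0 ≠ i1) :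
    ∃ y : E → ℤ, IsU y ∧ ∀ i, V i ⬝ᵥ y = 1 := by
  have cm := fun a b : E → ℤ => dotProduct_comm a b
  obtain ⟨a', b', ha', hb', hab', he'⟩ := decomp2 (h2 i0)
  -- a unit common to `V i0` and `V i1`
  have coords : ∀ i, i ≠ i0 → (V i ⬝ᵥ a' = 1 ∧ V i ⬝ᵥ b' = 0) ∨ (V i ⬝ᵥ a' = 0 ∧ V i ⬝ᵥ b' = 1) := by
    intro i hi
    have s := h1 i i0 hi
    rw [he', dotProduct_add] at s
    have b := bessel2 ha' hb' hab' (V i)
    rw [h2 i] at b
    exact int2 _ _ s b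
  obtain ⟨a, b, ha, hb, hab, he, ha1⟩ : ∃ a b : E → ℤ, IsU a ∧ IsU b ∧ a ⬝ᵥ b = 0 ∧ V i0 = a + b ∧ V i1 ⬝ᵥ a = 1 := by
    rcases coords i1 h01.symm with ⟨h, _⟩ | ⟨_, h⟩
    · exact ⟨a', b', ha', hb', hab', he', h⟩
    · exact ⟨b', a', hb', ha', by rw [cm]; exact hab', by rw [he']; abel, h⟩
  have ha2 : a ⬝ᵥ a = 1 := ha
  have hb2 : b ⬝ᵥ b = 1 := hb
  have coords' : ∀ i, i ≠ i0 → (V i ⬝ᵥ a = 1 ∧ V i ⬝ᵥ b = 0) ∨ (V i ⬝ᵥ a = 0 ∧ V i ⬝ᵥ b = 1) := by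
    intro i hi
    have s := h1 i i0 hi
    rw [he, dotProduct_add] at s
    have bb := bessel2 ha hb hab (V i)
    rw [h2 i] at bb
    exact int2 _ _ s bb
  -- the second decomposition
  have hV0a : V i0 ⬝ᵥ a = 1 := by
    rw [he, add_dotProduct, ha2, cm b a, hab]
    norm_num
  by_cases hall : ∀ i, V i ⬝ᵥ a = 1
  · exact ⟨a, ha, hall⟩
  exfalso
  push Not at hall
  obtain ⟨i2, hi2⟩ := hall
  have h20 : i2 ≠ i0 := fun h => hi2 (by rw [h]; exact hV0a)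
  have h21 : i2 ≠ i1 := fun h => hi2 (by rw [h]; exact ha1)
  let c := V i1 - a
  have he1 : V i1 = a + c := by simp [c]
  have hc : IsU c := by
    unfold IsU
    simp only [c, sub_dotProduct, dotProduct_sub]
    rw [cm a (V i1), h2 i1, ha1, ha2]
    norm_num
  have hac : a ⬝ᵥ c = 0 := by
    simp only [c, dotProduct_sub]
    rw [cm a (V i1), ha1, ha2]
    norm_num
  have hbc : b ⬝ᵥ c = 0 := by
    simp only [c, dotProduct_sub]
    rcases coords' i1 h01.symm with ⟨_, h⟩ | ⟨h, _⟩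
    · rw [cm b (V i1), h, cm b a, hab]
      norm_num
    · omega
  have coordsc : ∀ i, i ≠ i1 → (V i ⬝ᵥ a = 1 ∧ V i ⬝ᵥ c = 0) ∨ (V i ⬝ᵥ a = 0 ∧ V i ⬝ᵥ c = 1) := by
    intro i hi
    have s := h1 i i1 hi
    rw [he1, dotProduct_add] at s
    have bb := bessel2 ha hc hac (V i)
    rw [h2 i] at bb
    exact int2 _ _ s bb
  obtain ⟨z2b, z2c⟩ : V i2 ⬝ᵥ b = 1 ∧ V i2 ⬝ᵥ c = 1 := by
    rcases coords' i2 h20 with ⟨h, _⟩ | ⟨_, h⟩
    · exact absurd h hi2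
    · rcases coordsc i2 h21 with ⟨h', _⟩ | ⟨_, h'⟩
      · exact absurd h' hi2
      · exact ⟨h, h'⟩
  have he2 : V i2 = b + c := by
    have hz : (V i2 - (b + c)) ⬝ᵥ (V i2 - (b + c)) = 0 := by
      simp only [sub_dotProduct, dotProduct_sub, add_dotProduct, dotProduct_add]
      rw [cm b (V i2), cm c (V i2), z2b, z2c, h2 i2, cm c b, hbc, hb2, show c ⬝ᵥ c = 1 from hc]
      norm_num
    exact sub_eq_zero.1 (eq_zero_of_self hz)
  obtain ⟨i3, h3⟩ : ∃ i3 : I, i3 ∉ ({i0, i1, i2} : Finset I) := by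
    by_contra hall
    push Not at hall
    have hu : (Finset.univ : Finset I) = {i0, i1, i2} := by
      ext k
      simp only [Finset.mem_univ, true_iff]
      exact hall k
    have h6 : ({i0, i1, i2} : Finset I).card = 3 := by
      rw [Finset.card_eq_three]
      exact ⟨i0, i1, i2, h01, h20.symm, h21.symm, rfl⟩
    rw [← hu, Finset.card_univ] at h6
    exact hI h6
  simp only [Finset.mem_insert, Finset.mem_singleton, not_or] at h3
  obtain ⟨h30, h31, h32⟩ := h3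
  have s := h1 i3 i2 h32
  rw [he2, dotProduct_add] at s
  rcases coords' i3 h30 with ⟨u1, u2⟩ | ⟨u1, u2⟩ <;> rcases coordsc i3 h31 with ⟨v1, v2⟩ | ⟨v1, v2⟩ <;> omega

/-- The structure of an array of vectors. -/
theorem array [Fintype I] [Fintype J] (γ : I → J → E → ℤ)
    (hγ : ∀ i i' j j', γ i j ⬝ᵥ γ i' j' = (if i = i' then 1 else 0) + (if j = j' then 1 else 0) +
      (if i = i' ∧ j = j' then 1 else 0))
    (hI2 : 2 ≤ Fintype.card I) (hI3 : Fintype.card I ≠ 3) (hJ : 4 ≤ Fintype.card J) :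
    ∃ (x : I → E → ℤ) (y : J → E → ℤ) (z : I → J → E → ℤ), (∀ i j, γ i j = x i + y j + z i j) ∧
      (∀ i i', x i ⬝ᵥ x i' = if i = i' then 1 else 0) ∧ (∀ j j', y j ⬝ᵥ y j' = if j = j' then 1 else 0) ∧
      (∀ i j i' j', z i j ⬝ᵥ z i' j' = if i = i' ∧ j = j' then 1 else 0) ∧
      (∀ i j, x i ⬝ᵥ y j = 0) ∧ (∀ i i' j, x i ⬝ᵥ z i' j = 0) ∧ (∀ j i j', y j ⬝ᵥ z i j' = 0) := by
  have cm := fun a b : E → ℤ => dotProduct_comm a b
  have h33 : ∀ i j, γ i j ⬝ᵥ γ i j = 3 := by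
    intro i j
    rw [hγ]
    simp
  have hrow : ∀ i j j', j ≠ j' → γ i j ⬝ᵥ γ i j' = 1 := by
    intro i j j' h
    rw [hγ]
    simp [h]
  have hcol : ∀ i i' j, i ≠ i' → γ i j ⬝ᵥ γ i' j = 1 := by
    intro i i' j h
    rw [hγ]
    simp [h]
  have hzero : ∀ i i' j j', i ≠ i' → j ≠ j' → γ i j ⬝ᵥ γ i' j' = 0 := by
    intro i i' j j' h h'
    rw [hγ]
    simp [h, h']
  have hR : ∀ i i', i ≠ i' → Row (γ i) (γ i') := by
    intro i i' h
    refine ⟨?_, ?_, ?_⟩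
    · intro j j'
      by_cases hj : j = j'
      · subst hj; simp [h33]
      · simp [hj, hrow i j j' hj]
    · intro j j'
      by_cases hj : j = j'
      · subst hj; simp [h33]
      · simp [hj, hrow i' j j' hj]
    · intro j j'
      by_cases hj : j = j'
      · subst hj; simp [hcol i' i j h.symm]
      · simp [hj, hzero i' i j j' h.symm hj]
  have hother : ∀ i : I, ∃ i', i' ≠ i := by
    intro i
    have : Nontrivial I := Fintype.one_lt_card_iff_nontrivial.1 (by omega)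
    exact exists_ne i
  have hotherJ : ∀ j : J, ∃ j', j' ≠ j := by
    intro i
    have : Nontrivial J := Fintype.one_lt_card_iff_nontrivial.1 (by omega)
    exact exists_ne i
  have hstar : ∀ i, ∃ x : E → ℤ, IsU x ∧ ∀ j, γ i j ⬝ᵥ x = 1 := by
    intro i
    obtain ⟨i', hi'⟩ := hother i
    exact row_star (hR i i' hi'.symm) hJ
  choose x hx hγx using hstar
  have hx2 : ∀ i, x i ⬝ᵥ x i = 1 := hx
  -- three further columns
  have hthree : ∀ j : J, ∃ j1 j2 j3 : J, j1 ≠ j2 ∧ j1 ≠ j3 ∧ j2 ≠ j3 ∧ j ≠ j1 ∧ j ≠ j2 ∧ j ≠ j3 := by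
    intro j
    have hc : 3 ≤ (Finset.univ.erase j : Finset J).card := by
      rw [Finset.card_erase_of_mem (Finset.mem_univ _), Finset.card_univ]
      omega
    obtain ⟨s, hs, hs3⟩ := Finset.exists_subset_card_eq hc
    obtain ⟨a, b, c, hab, hac, hbc, rfl⟩ := Finset.card_eq_three.1 hs3
    have h1 := hs (Finset.mem_insert_self a _)
    have h2 := hs (Finset.mem_insert_of_mem (Finset.mem_insert_self b _))
    have h3 := hs (Finset.mem_insert_of_mem (Finset.mem_insert_of_mem (Finset.mem_singleton_self c)))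
    simp only [Finset.mem_erase, Finset.mem_univ, and_true] at h1 h2 h3
    exact ⟨a, b, c, hab, hac, hbc, h1.symm, h2.symm, h3.symm⟩
  -- cleanness
  have hclean : ∀ i i' j, i ≠ i' → γ i' j ⬝ᵥ x i = 0 := by
    intro i i' j hii
    obtain ⟨j1, j2, j3, h12, h13, h23, h1, h2, h3⟩ := hthree j
    exact clean (hR i i' hii) (hx i) (hγx i) h12 h13 h23 (h33 i' j) (hzero i' i j j1 hii.symm h1)
      (hzero i' i j j2 hii.symm h2) (hzero i' i j j3 hii.symm h3)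
  -- the decomposition of the lines
  have hsplit : ∀ i j, ∃ p q : E → ℤ, IsU p ∧ IsU q ∧ x i ⬝ᵥ p = 0 ∧ x i ⬝ᵥ q = 0 ∧ p ⬝ᵥ q = 0 ∧
      γ i j = x i + p + q := fun i j => split_unit (h33 i j) (hx i) (hγx i j)
  have hxx : ∀ i i', i ≠ i' → x i ⬝ᵥ x i' = 0 := by
    intro i i' hii
    obtain ⟨j⟩ : Nonempty J := by
      apply Fintype.card_pos_iff.1
      omega
    obtain ⟨p, q, hp, hq, hxp, hxq, hpq, e⟩ := hsplit i' j
    have := hclean i i' j hii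
    rw [e] at this
    exact (orth_of_sum3 (hx i') hp hq (hx i) hxp hxq hpq (z := x i) (by rw [cm]; exact this)).1
  -- the column star
  let V : I → J → E → ℤ := fun i j => γ i j - x i
  have hV2 : ∀ i j, V i j ⬝ᵥ V i j = 2 := by
    intro i j
    simp only [V, sub_dotProduct, dotProduct_sub]
    rw [cm (x i) (γ i j), hγx, h33, hx2]
    norm_num
  have hV1 : ∀ j i i', i ≠ i' → V i j ⬝ᵥ V i' j = 1 := by
    intro j i i' hii
    simp only [V, sub_dotProduct, dotProduct_sub]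
    rw [cm (x i) (γ i' j), hclean i i' j hii, hclean i' i j hii.symm, hcol i i' j hii, hxx i i' hii]
    norm_num
  obtain ⟨i₀, i₁, hi01⟩ : ∃ i₀ i₁ : I, i₀ ≠ i₁ := by
    have : Nontrivial I := Fintype.one_lt_card_iff_nontrivial.1 (by omega)
    exact exists_pair_ne I
  have hcs : ∀ j, ∃ y : E → ℤ, IsU y ∧ ∀ i, V i j ⬝ᵥ y = 1 := fun j =>
    col_star hI3 (fun i => hV2 i j) (fun i i' hii => hV1 j i i' hii) hi01
  choose y hy hVy using hcs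
  have hy2 : ∀ j, y j ⬝ᵥ y j = 1 := hy
  let z : I → J → E → ℤ := fun i j => V i j - y j
  have he : ∀ i j, γ i j = x i + y j + z i j := by
    intro i j
    simp [z, V]
  have hz : ∀ i j, IsU (z i j) := by
    intro i j
    unfold IsU
    simp only [z, sub_dotProduct, dotProduct_sub]
    rw [cm (y j) (V i j), hVy, hV2, hy2]
    norm_num
  have hz2 : ∀ i j, z i j ⬝ᵥ z i j = 1 := hz
  have hyz : ∀ i j, y j ⬝ᵥ z i j = 0 := by
    intro i j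
    simp only [z, dotProduct_sub]
    rw [cm (y j) (V i j), hVy, hy2]
    norm_num
  have hxV : ∀ i j, x i ⬝ᵥ V i j = 0 := by
    intro i j
    simp only [V, dotProduct_sub]
    rw [cm (x i) (γ i j), hγx, hx2]
    norm_num
  have hxyz : ∀ i j, x i ⬝ᵥ y j = 0 ∧ x i ⬝ᵥ z i j = 0 := by
    intro i j
    have h : V i j = y j + z i j := by simp [z]
    have := hxV i j
    rw [h] at this
    exact orth_of_sum2 (hy j) (hz i j) (hx i) (hyz i j) this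
  -- (b): constituents of other columns
  have hb : ∀ i j j', j ≠ j' → γ i j ⬝ᵥ y j' = 0 ∧ γ i j ⬝ᵥ z i j' = 0 := by
    intro i j j' hjj
    obtain ⟨i', hi'⟩ := hother i
    have ov := overlap (hx i) (hy j') (hz i j') (hxyz i j').1 (hxyz i j').2 (hyz i j') (he i j') (h33 i j)
      (hrow i j j' hjj) (y := γ i' j') (hcol i' i j' hi') (hzero i' i j' j hi' hjj.symm)
    rcases ov with ⟨_, h, h'⟩ | ⟨h, _, _⟩ | ⟨h, _, _⟩
    · exact ⟨h, h'⟩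
    · have := hγx i j
      omega
    · have := hγx i j
      omega
  -- (c): constituents of other rows
  have hgy : ∀ i j, γ i j ⬝ᵥ y j = 1 := by
    intro i j
    rw [he]
    simp only [add_dotProduct]
    rw [hy2, cm (z i j) (y j), hyz, (hxyz i j).1]
    norm_num
  have hc : ∀ i i' j, i ≠ i' → γ i j ⬝ᵥ z i' j = 0 := by
    intro i i' j hii
    obtain ⟨j', hj'⟩ := hotherJ j
    have ov := overlap (hx i') (hy j) (hz i' j) (hxyz i' j).1 (hxyz i' j).2 (hyz i' j) (he i' j) (h33 i j)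
      (hcol i i' j hii) (y := γ i' j') (hrow i' j' j hj') (hzero i' i j' j hii.symm hj')
    rcases ov with ⟨_, h, h'⟩ | ⟨_, _, h'⟩ | ⟨h, _, _⟩
    · have := hgy i j
      omega
    · exact h'
    · have := hgy i j
      omega
  -- (d)
  have hd : ∀ i i' j j', i ≠ i' → j ≠ j' → γ i j ⬝ᵥ z i' j' = 0 := by
    intro i i' j j' hii hjj
    have h0 := hzero i i' j j' hii hjj
    have h1 : γ i j ⬝ᵥ y j' = 0 := (hb i j j' hjj).1
    rw [he i' j'] at h0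
    simp only [dotProduct_add] at h0
    rw [h1, hclean i' i j hii.symm] at h0
    simpa using h0
  have hzz : ∀ i j i' j', ¬ (i = i' ∧ j = j') → γ i j ⬝ᵥ z i' j' = 0 := by
    intro i j i' j' hne
    by_cases hii : i = i'
    · subst hii
      have hjj : j ≠ j' := fun h => hne ⟨rfl, h⟩
      exact (hb i j j' hjj).2
    · by_cases hjj : j = j'
      · subst hjj
        exact hc i i' j hii
      · exact hd i i' j j' hii hjj
  -- unpacking with a line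
  have unp : ∀ i j (w : E → ℤ), IsU w → γ i j ⬝ᵥ w = 0 → w ⬝ᵥ x i = 0 ∧ w ⬝ᵥ y j = 0 ∧ w ⬝ᵥ z i j = 0 := by
    intro i j w hw h
    refine orth_of_sum3 (hx i) (hy j) (hz i j) hw (hxyz i j).1 (hxyz i j).2 (hyz i j) ?_
    rw [← he, cm]
    exact h
  refine ⟨x, y, z, he, ?_, ?_, ?_, ?_, ?_, ?_⟩
  · intro i i'
    by_cases h : i = i'
    · subst h; simp [hx2]
    · simp [h, hxx i i' h]
  · intro j j'
    by_cases h : j = j'
    · subst h; simp [hy2]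
    · rw [if_neg h]
      rw [cm]
      exact (unp i₀ j (y j') (hy j') (hb i₀ j j' h).1).2.1
  · intro i j i' j'
    by_cases h : i = i' ∧ j = j'
    · obtain ⟨rfl, rfl⟩ := h
      simp [hz2]
    · rw [if_neg h]
      have := (unp i j (z i' j') (hz i' j') (hzz i j i' j' h)).2.2
      rw [cm]
      exact this
  · intro i j
    exact (hxyz i j).1
  · intro i i' j
    by_cases h : i = i'
    · subst h
      exact (hxyz i j).2
    · have : γ i' j ⬝ᵥ x i = 0 := hclean i i' j h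
      exact (unp i' j (x i) (hx i) this).2.2
  · intro j i j'
    by_cases h : j = j'
    · subst h
      exact hyz i j
    · have : γ i j' ⬝ᵥ y j = 0 := (hb i j' j (Ne.symm h)).1
      exact (unp i j' (y j) (hy j) this).2.2

end Array


section Sym

variable {I J : Type*} [DecidableEq I] [DecidableEq J]

/-- The symmetric form of the structure theorem for arrays. -/
theorem array_sym [Fintype I] [Fintype J] (γ : I → J → E → ℤ)
    (hγ : ∀ i i' j j', γ i j ⬝ᵥ γ i' j' = (if i = i' then 1 else 0) + (if j = j' then 1 else 0) +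
      (if i = i' ∧ j = j' then 1 else 0))
    (hI2 : 2 ≤ Fintype.card I) (hJ2 : 2 ≤ Fintype.card J) (hI3 : Fintype.card I ≠ 3) (hJ3 : Fintype.card J ≠ 3)
    (h4 : 4 ≤ Fintype.card I ∨ 4 ≤ Fintype.card J) :
    ∃ (x : I → E → ℤ) (y : J → E → ℤ) (z : I → J → E → ℤ), (∀ i j, γ i j = x i + y j + z i j) ∧
      (∀ i i', x i ⬝ᵥ x i' = if i = i' then 1 else 0) ∧ (∀ j j', y j ⬝ᵥ y j' = if j = j' then 1 else 0) ∧
      (∀ i j i' j', z i j ⬝ᵥ z i' j' = if i = i' ∧ j = j' then 1 else 0) ∧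
      (∀ i j, x i ⬝ᵥ y j = 0) ∧ (∀ i i' j, x i ⬝ᵥ z i' j = 0) ∧ (∀ j i j', y j ⬝ᵥ z i j' = 0) := by
  by_cases hJ : 4 ≤ Fintype.card J
  · exact array γ hγ hI2 hI3 hJ
  · have hI : 4 ≤ Fintype.card I := h4.resolve_right hJ
    obtain ⟨x, y, z, e, hxx, hyy, hzz, hxy, hxz, hyz⟩ := array (fun j i => γ i j) (by
      intro j j' i i'
      rw [hγ]
      simp only [and_comm]
      ring) hJ2 hJ3 hI
    refine ⟨y, x, fun i j => z j i, ?_, hyy, hxx, ?_, ?_, ?_, ?_⟩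
    · intro i j
      rw [e j i]
      abel
    · intro i j i' j'
      rw [hzz]
      simp only [and_comm]
    · intro i j
      rw [dotProduct_comm]
      exact hxy j i
    · intro i i' j
      exact hyz i j i'
    · intro j i j'
      exact hxz j j' i

/-- The vectors corresponding to the linear characters of the cyclic group. -/
def optVec (e₀ : E → ℤ) (x : I → E → ℤ) (y : J → E → ℤ) (z : I → J → E → ℤ) : Option I → Option J → E → ℤ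
  | none, none => e₀
  | some i, none => - x i
  | none, some j => - y j
  | some i, some j => z i j

theorem optVec_orth {e₀ : E → ℤ} {x : I → E → ℤ} {y : J → E → ℤ} {z : I → J → E → ℤ} (he : IsU e₀)
    (hex : ∀ i, e₀ ⬝ᵥ x i = 0) (hey : ∀ j, e₀ ⬝ᵥ y j = 0) (hez : ∀ i j, e₀ ⬝ᵥ z i j = 0)
    (hxx : ∀ i i', x i ⬝ᵥ x i' = if i = i' then 1 else 0) (hyy : ∀ j j', y j ⬝ᵥ y j' = if j = j' then 1 else 0)
    (hzz : ∀ i j i' j', z i j ⬝ᵥ z i' j' = if i = i' ∧ j = j' then 1 else 0)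
    (hxy : ∀ i j, x i ⬝ᵥ y j = 0) (hxz : ∀ i i' j, x i ⬝ᵥ z i' j = 0) (hyz : ∀ j i j', y j ⬝ᵥ z i j' = 0)
    (a a' : Option I) (b b' : Option J) :
    optVec e₀ x y z a b ⬝ᵥ optVec e₀ x y z a' b' = if a = a' ∧ b = b' then 1 else 0 := by
  have hex' : ∀ i, x i ⬝ᵥ e₀ = 0 := fun i => by rw [dotProduct_comm]; exact hex i
  have hey' : ∀ i, y i ⬝ᵥ e₀ = 0 := fun i => by rw [dotProduct_comm]; exact hey i
  have hez' : ∀ i j, z i j ⬝ᵥ e₀ = 0 := fun i j => by rw [dotProduct_comm]; exact hez i j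
  have hyx' : ∀ j i, y j ⬝ᵥ x i = 0 := fun j i => by rw [dotProduct_comm]; exact hxy i j
  have hzx' : ∀ i j i', z i j ⬝ᵥ x i' = 0 := fun i j i' => by rw [dotProduct_comm]; exact hxz i' i j
  have hzy' : ∀ i j j', z i j ⬝ᵥ y j' = 0 := fun i j j' => by rw [dotProduct_comm]; exact hyz j' i j
  have he' : e₀ ⬝ᵥ e₀ = 1 := he
  cases a with
  | none =>
    cases b with
    | none =>
      cases a' with
      | none => cases b' with
        | none => simpa [optVec] using he'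
        | some j' => simp [optVec, hey]
      | some i' => cases b' with
        | none => simp [optVec, hex]
        | some j' => simp [optVec, hez]
    | some j =>
      cases a' with
      | none => cases b' with
        | none => simp [optVec, hey']
        | some j' => simp [optVec, hyy]
      | some i' => cases b' with
        | none => simp [optVec, hyx']
        | some j' => simp [optVec, hyz]
  | some i =>
    cases b with
    | none =>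
      cases a' with
      | none => cases b' with
        | none => simp [optVec, hex']
        | some j' => simp [optVec, hxy]
      | some i' => cases b' with
        | none => simp [optVec, hxx]
        | some j' => simp [optVec, hxz]
    | some j =>
      cases a' with
      | none => cases b' with
        | none => simp [optVec, hez']
        | some j' => simp [optVec, hzy']
      | some i' => cases b' with
        | none => simp [optVec, hzx']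
        | some j' => simp [optVec, hzz]

end Sym

end Cfsg.Agent.Lib.CycArray
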