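import Mathlib
import Cfsg.Agent.Lib.CycArray

/-!
# A certified search for a configuration of vectors in `ℤ^E`

Vectors with a prescribed Gram matrix are written one after another as integer combinations of an
orthonormal frame, which grows when a remainder is left over.  The search over all possible
coefficient vectors is a computation on lists of integers.
-/

set_option autoImplicit false

namespace Cfsg.Agent.Lib.Coh648

open Matrix Cfsg.Agent.Lib.CycArray

variable {E : Type*} [Fintype E]

/-- Pairwise orthogonal unit vectors. -/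
def ON : List (E → ℤ) → Prop
  | [] => True
  | x :: l => IsU x ∧ (∀ u ∈ l, x ⬝ᵥ u = 0) ∧ ON l

/-- The integer combination of a list of vectors. -/
def comb : List (E → ℤ) → List ℤ → (E → ℤ)
  | u :: l, c :: cs => c • u + comb l cs
  | _, _ => 0

/-- The standard inner product of coefficient lists. -/
def dotL : List ℤ → List ℤ → ℤ
  | a :: as, b :: bs => a * b + dotL as bs
  | _, _ => 0

@[simp] theorem comb_nil (c : List ℤ) : comb ([] : List (E → ℤ)) c = 0 := rfl
@[simp] theorem comb_nil' (l : List (E → ℤ)) : comb l [] = 0 := by cases l <;> rfl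
@[simp] theorem comb_cons (u : E → ℤ) (l : List (E → ℤ)) (c : ℤ) (cs : List ℤ) :
    comb (u :: l) (c :: cs) = c • u + comb l cs := rfl
@[simp] theorem dotL_nil (c : List ℤ) : dotL [] c = 0 := rfl
@[simp] theorem dotL_nil' (c : List ℤ) : dotL c [] = 0 := by cases c <;> rfl
@[simp] theorem dotL_cons (a b : ℤ) (as bs : List ℤ) :
    dotL (a :: as) (b :: bs) = a * b + dotL as bs := rfl

theorem dotL_self_nonneg : ∀ c : List ℤ, 0 ≤ dotL c c
  | [] => le_refl _
  | a :: as => by
    have := dotL_self_nonneg as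
    simp only [dotL_cons]
    nlinarith [mul_self_nonneg a]

theorem dot_comb (v : E → ℤ) : ∀ (l : List (E → ℤ)) (c : List ℤ),
    v ⬝ᵥ comb l c = dotL (l.map (v ⬝ᵥ ·)) c
  | [], c => by simp
  | u :: l, [] => by simp
  | u :: l, c :: cs => by
    simp only [comb_cons, dotProduct_add, dotProduct_smul, List.map_cons, dotL_cons, dot_comb v l cs,
      smul_eq_mul]
    ring

theorem comb_dot (v : E → ℤ) (l : List (E → ℤ)) (c : List ℤ) :
    comb l c ⬝ᵥ v = dotL (l.map (v ⬝ᵥ ·)) c := by
  rw [dotProduct_comm, dot_comb]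

theorem orth_comb {x : E → ℤ} {l : List (E → ℤ)} (h : ∀ u ∈ l, x ⬝ᵥ u = 0) (c : List ℤ) :
    x ⬝ᵥ comb l c = 0 := by
  induction l generalizing c with
  | nil => simp
  | cons u l ih =>
    cases c with
    | nil => simp
    | cons a cs =>
      simp only [comb_cons, dotProduct_add, dotProduct_smul, smul_eq_mul]
      rw [h u (by simp), ih (fun w hw => h w (by simp [hw]))]
      ring

theorem comb_dot_comb : ∀ {l : List (E → ℤ)}, ON l → ∀ (c c' : List ℤ), c.length ≤ l.length →
    comb l c ⬝ᵥ comb l c' = dotL c c'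
  | [], _, c, c', h => by
    have : c = [] := List.length_eq_zero_iff.1 (by simpa using h)
    subst this
    simp
  | u :: l, hl, [], c', _ => by simp
  | u :: l, hl, a :: as, [], _ => by simp
  | u :: l, hl, a :: as, b :: bs, h => by
    obtain ⟨hu, hul, hl'⟩ := hl
    have h1 := orth_comb hul as
    have h2 := orth_comb hul bs
    have h3 := comb_dot_comb hl' as bs (by simpa using h)
    have hu' : u ⬝ᵥ u = 1 := hu
    simp only [comb_cons, dotProduct_add, add_dotProduct, dotProduct_smul, smul_dotProduct, smul_eq_mul,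
      dotL_cons, h3, hu', h2]
    rw [dotProduct_comm (comb l as) u, h1]
    ring

theorem comb_append : ∀ (l new : List (E → ℤ)) (c : List ℤ), c.length ≤ l.length →
    comb (l ++ new) c = comb l c
  | [], new, c, h => by
    have : c = [] := List.length_eq_zero_iff.1 (by simpa using h)
    subst this
    simp
  | u :: l, new, [], _ => by simp
  | u :: l, new, a :: as, h => by
    simp only [List.cons_append, comb_cons]
    rw [comb_append l new as (by simpa using h)]

theorem ON.tail {x : E → ℤ} {l : List (E → ℤ)} (h : ON (x :: l)) : ON l := h.2.2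

theorem ON_append : ∀ {l new : List (E → ℤ)}, ON l → ON new →
    (∀ u ∈ l, ∀ v ∈ new, u ⬝ᵥ v = 0) → ON (l ++ new)
  | [], new, _, h, _ => by simpa using h
  | x :: l, new, hl, hn, h => by
    refine ⟨hl.1, ?_, ON_append hl.2.2 hn (fun u hu v hv => h u (by simp [hu]) v hv)⟩
    intro u hu
    rcases List.mem_append.1 hu with hu | hu
    · exact hl.2.1 u hu
    · exact h x (by simp) u hu

theorem ON.mem {l : List (E → ℤ)} (h : ON l) : ∀ u ∈ l, IsU u := by
  induction l with
  | nil => simp
  | cons x l ih =>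
    intro u hu
    rcases List.mem_cons.1 hu with rfl | hu
    · exact h.1
    · exact ih h.2.2 u hu

/-- The remainder is orthogonal to the frame. -/
theorem res_orth (W : E → ℤ) : ∀ {l : List (E → ℤ)}, ON l →
    ∀ u ∈ l, (W - comb l (l.map (W ⬝ᵥ ·))) ⬝ᵥ u = 0
  | [], _, u, hu => by simp at hu
  | x :: l, hl, u, hu => by
    obtain ⟨hx, hxl, hl'⟩ := hl
    have hx' : x ⬝ᵥ x = 1 := hx
    have ih := res_orth W hl'
    simp only [List.map_cons, comb_cons]
    rcases List.mem_cons.1 hu with h | hu
    · rw [h]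
      have h1 := orth_comb hxl (l.map (W ⬝ᵥ ·))
      rw [dotProduct_comm] at h1
      simp only [sub_dotProduct, add_dotProduct, smul_dotProduct, smul_eq_mul, h1, hx']
      rw [dotProduct_comm W x]
      ring
    · have h1 := ih u hu
      have h2 := hxl u hu
      simp only [sub_dotProduct, add_dotProduct, smul_dotProduct, smul_eq_mul, h2] at h1 ⊢
      linarith

/-- The norm of the remainder. -/
theorem res_norm (W : E → ℤ) {l : List (E → ℤ)} (hl : ON l) :
    (W - comb l (l.map (W ⬝ᵥ ·))) ⬝ᵥ (W - comb l (l.map (W ⬝ᵥ ·))) =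
      W ⬝ᵥ W - dotL (l.map (W ⬝ᵥ ·)) (l.map (W ⬝ᵥ ·)) := by
  set c := l.map (W ⬝ᵥ ·) with hc
  have h1 : (W - comb l c) ⬝ᵥ comb l c = 0 := by
    refine orth_comb (fun u hu => ?_) c
    exact res_orth W hl u hu
  have h2 := dot_comb W l c
  rw [dotProduct_sub, h1, sub_zero, sub_dotProduct, dotProduct_comm (comb l c) W, h2]

theorem bessel_list (W : E → ℤ) {l : List (E → ℤ)} (hl : ON l) :
    dotL (l.map (W ⬝ᵥ ·)) (l.map (W ⬝ᵥ ·)) ≤ W ⬝ᵥ W := by
  have := res_norm W hl
  have h2 := nonneg_self (W - comb l (l.map (W ⬝ᵥ ·)))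
  linarith

/-- Coefficient vector followed by new units. -/
theorem extend (W : E → ℤ) {l : List (E → ℤ)} (hl : ON l) (s : ℕ) (hs : s ≤ 3)
    (hsN : W ⬝ᵥ W - dotL (l.map (W ⬝ᵥ ·)) (l.map (W ⬝ᵥ ·)) = (s : ℤ)) :
    ∃ new : List (E → ℤ), new.length = s ∧ ON (l ++ new) ∧
      W = comb (l ++ new) (l.map (W ⬝ᵥ ·) ++ List.replicate s 1) := by
  set c := l.map (W ⬝ᵥ ·) with hc
  have hcl : c.length = l.length := by simp [hc]
  have hn := res_norm W hl
  rw [← hc, hsN] at hn
  have hort := res_orth W hl
  rw [← hc] at hort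
  set r := W - comb l c with hr
  have hW : W = comb l c + r := by rw [hr]; abel
  have hcomb : ∀ new d, comb (l ++ new) (c ++ d) = comb l c + comb new d := by
    have aux : ∀ (l new : List (E → ℤ)) (c d : List ℤ), c.length = l.length →
        comb (l ++ new) (c ++ d) = comb l c + comb new d := by
      intro l
      induction l with
      | nil =>
        intro new c d h
        have : c = [] := List.length_eq_zero_iff.1 (by simpa using h)
        subst this
        simp
      | cons u l ih =>
        intro new c d h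
        cases c with
        | nil => simp at h
        | cons a as =>
          simp only [List.cons_append, comb_cons]
          rw [ih new as d (by simpa using h), add_assoc]
    intro new d
    exact aux l new c d hcl
  have hs' : s = 0 ∨ s = 1 ∨ s = 2 ∨ s = 3 := by omega
  rcases hs' with rfl | rfl | rfl | rfl
  · refine ⟨[], rfl, by simpa using hl, ?_⟩
    have hr0 : r = 0 := eq_zero_of_self (by simpa using hn)
    rw [hcomb]
    rw [hW, hr0]
    simp
  · refine ⟨[r], rfl, ?_, ?_⟩
    · refine ON_append hl ⟨by simpa [IsU] using hn, by simp, trivial⟩ ?_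
      intro u hu v hv
      rw [List.mem_singleton] at hv
      subst hv
      rw [dotProduct_comm]
      exact hort u hu
    · rw [hcomb]
      simp only [List.replicate, comb_cons, comb_nil', add_zero, one_smul]
      exact hW
  · obtain ⟨a, b, ha, hb, hab, hrab⟩ := decomp2 (v := r) (by simpa using hn)
    refine ⟨[a, b], rfl, ?_, ?_⟩
    · refine ON_append hl ⟨ha, by simpa using hab, hb, by simp, trivial⟩ ?_
      intro u hu v hv
      have hz : u ⬝ᵥ (a + b) = 0 := by
        rw [← hrab, dotProduct_comm]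
        exact hort u hu
      obtain ⟨h1, h2⟩ := orth_of_sum2 ha hb (hl.mem u hu) hab hz
      simp only [List.mem_cons, List.not_mem_nil, or_false] at hv
      rcases hv with rfl | rfl
      · exact h1
      · exact h2
    · rw [hcomb]
      simp only [List.replicate, comb_cons, comb_nil', add_zero, one_smul]
      rw [← hrab]
      exact hW
  · obtain ⟨a, b, d, ha, hb, hd, hab, had, hbd, hrab⟩ := decomp3 (v := r) (by simpa using hn)
    refine ⟨[a, b, d], rfl, ?_, ?_⟩
    · refine ON_append hl ⟨ha, by simpa using ⟨hab, had⟩, hb, by simpa using hbd, hd, by simp, trivial⟩ ?_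
      intro u hu v hv
      have hz : u ⬝ᵥ (a + b + d) = 0 := by
        rw [← hrab, dotProduct_comm]
        exact hort u hu
      obtain ⟨h1, h2, h3⟩ := orth_of_sum3 ha hb hd (hl.mem u hu) hab had hbd hz
      simp only [List.mem_cons, List.not_mem_nil, or_false] at hv
      rcases hv with rfl | rfl | rfl
      · exact h1
      · exact h2
      · exact h3
    · rw [hcomb]
      simp only [List.replicate, comb_cons, comb_nil', add_zero, one_smul]
      have e : a + (b + d) = r := by rw [hrab]; abel
      rw [e]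
      exact hW

/-! ### The search -/

theorem sq_cases (x : ℤ) (h : x * x ≤ 4) : x = 0 ∨ x = 1 ∨ x = -1 ∨ x = 2 ∨ x = -2 := by
  have h1 : x ≤ 2 := by nlinarith
  have h2 : -2 ≤ x := by nlinarith
  omega

/-- One coordinate of the coefficient vector is fixed: update the remaining linear constraints, and
fail if one of them can no longer be met. -/
def stepS (x : ℤ) : List (List ℤ × ℤ) → Option (List (List ℤ × ℤ))
  | [] => some []
  | ig :: st =>
    match ig.1.tail, ig.2 - x * ig.1.headD 0 with
    | [], g' =>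
      if g' = 0 then
        match stepS x st with
        | none => none
        | some st' => some (([], g') :: st')
      else none
    | a :: i', g' =>
      match stepS x st with
      | none => none
      | some st' => some ((a :: i', g') :: st')

theorem dotL_split (x : ℤ) (t i : List ℤ) : dotL (x :: t) i = x * i.headD 0 + dotL t i.tail := by
  cases i <;> simp

theorem stepS_sound (x : ℤ) (t : List ℤ) : ∀ st : List (List ℤ × ℤ),
    (∀ ig ∈ st, dotL (x :: t) ig.1 = ig.2) →
    ∃ st', stepS x st = some st' ∧ ∀ ig ∈ st', dotL t ig.1 = ig.2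
  | [], _ => ⟨[], rfl, by simp⟩
  | ig :: st, h => by
    have h1 := h ig (by simp)
    obtain ⟨st', h2, h3⟩ := stepS_sound x t st (fun z hz => h z (by simp [hz]))
    rw [dotL_split] at h1
    have h4 : dotL t ig.1.tail = ig.2 - x * ig.1.headD 0 := by linarith
    unfold stepS
    generalize ig.1.tail = i' at h4 ⊢
    generalize ig.2 - x * ig.1.headD 0 = g' at h4 ⊢
    cases i' with
    | nil =>
      have hg : g' = 0 := by simpa using h4.symm
      simp only [hg, if_true, h2]
      refine ⟨_, rfl, ?_⟩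
      intro z hz
      rcases List.mem_cons.1 hz with rfl | hz
      · simp
      · exact h3 z hz
    | cons a i'' =>
      simp only [h2]
      refine ⟨_, rfl, ?_⟩
      intro z hz
      rcases List.mem_cons.1 hz with rfl | hz
      · exact h4
      · exact h3 z hz

/-- Check all coefficient vectors of a given length and bounded norm (the bound at most `4`) that
meet the linear constraints `st`. -/
def scan : ℕ → ℕ → List (List ℤ × ℤ) → (List ℤ → ℕ → Bool) → Bool
  | 0, b, _, p => p [] b
  | n + 1, b, st, p =>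
    (match stepS 0 st with
      | none => true
      | some st' => scan n b st' (fun t r => p (0 :: t) r)) &&
    (Nat.blt b 1 ||
      ((match stepS 1 st with
        | none => true
        | some st' => scan n (b - 1) st' (fun t r => p (1 :: t) r)) &&
       (match stepS (-1) st with
        | none => true
        | some st' => scan n (b - 1) st' (fun t r => p (-1 :: t) r)))) &&
    (Nat.blt b 4 ||
      ((match stepS 2 st with
        | none => true
        | some st' => scan n (b - 4) st' (fun t r => p (2 :: t) r)) &&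
       (match stepS (-2) st with
        | none => true
        | some st' => scan n (b - 4) st' (fun t r => p (-2 :: t) r))))

theorem scan_sound : ∀ (n b : ℕ) (st : List (List ℤ × ℤ)) (p : List ℤ → ℕ → Bool),
    scan n b st p = true → b ≤ 4 →
    ∀ c : List ℤ, c.length = n → dotL c c ≤ b → (∀ ig ∈ st, dotL c ig.1 = ig.2) →
      p c (b - (dotL c c).toNat) = true
  | 0, b, st, p, h, _, c, hc, _, _ => by
    have : c = [] := List.length_eq_zero_iff.1 hc
    subst this
    simpa [scan] using h
  | n + 1, b, st, p, h, hb, c, hc, hd, hst => by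
    cases c with
    | nil => simp at hc
    | cons x t =>
      have ht : t.length = n := by simpa using hc
      simp only [dotL_cons] at hd ⊢
      have hnn := dotL_self_nonneg t
      have hxx := mul_self_nonneg x
      obtain ⟨st', hs1, hs2⟩ := stepS_sound x t st hst
      simp only [scan, Bool.and_eq_true, Bool.or_eq_true] at h
      obtain ⟨⟨h0, h1⟩, h2⟩ := h
      have hblt : ∀ b k : ℕ, Nat.blt b k = true ↔ b < k := by
        intro b k
        simp [Nat.blt_eq]
      rcases sq_cases x (by omega) with rfl | rfl | rfl | rfl | rfl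
      · rw [hs1] at h0
        have := scan_sound n b st' _ h0 hb t ht (by omega) hs2
        simpa using this
      · rcases h1 with h1 | ⟨h1, _⟩
        · rw [hblt] at h1
          omega
        · rw [hs1] at h1
          have := scan_sound n (b - 1) st' _ h1 (by omega) t ht (by omega) hs2
          have e : b - 1 - (dotL t t).toNat = b - ((1 : ℤ) * 1 + dotL t t).toNat := by omega
          rw [e] at this
          exact this
      · rcases h1 with h1 | ⟨_, h1⟩
        · rw [hblt] at h1
          omega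
        · rw [hs1] at h1
          have := scan_sound n (b - 1) st' _ h1 (by omega) t ht (by omega) hs2
          have e : b - 1 - (dotL t t).toNat = b - ((-1 : ℤ) * -1 + dotL t t).toNat := by omega
          rw [e] at this
          exact this
      · rcases h2 with h1 | ⟨h1, _⟩
        · rw [hblt] at h1
          omega
        · rw [hs1] at h1
          have := scan_sound n (b - 4) st' _ h1 (by omega) t ht (by omega) hs2
          have e : b - 4 - (dotL t t).toNat = b - ((2 : ℤ) * 2 + dotL t t).toNat := by omega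
          rw [e] at this
          exact this
      · rcases h2 with h1 | ⟨_, h1⟩
        · rw [hblt] at h1
          omega
        · rw [hs1] at h1
          have := scan_sound n (b - 4) st' _ h1 (by omega) t ht (by omega) hs2
          have e : b - 4 - (dotL t t).toNat = b - ((-2 : ℤ) * -2 + dotL t t).toNat := by omega
          rw [e] at this
          exact this

theorem zip_of_eq (c : List ℤ) : ∀ (imgs : List (List ℤ)) (g : List ℤ), imgs.map (dotL c) = g →
    ∀ ig ∈ imgs.zip g, dotL c ig.1 = ig.2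
  | [], g, h => by simp
  | i :: is, g, h => by
    cases g with
    | nil => simp
    | cons x xs =>
      simp only [List.map_cons, List.cons.injEq] at h
      intro ig hig
      simp only [List.zip_cons_cons, List.mem_cons] at hig
      rcases hig with rfl | hig
      · exact h.1
      · exact zip_of_eq c is xs h.2 ig hig

/-- The search: `rows` lists norms and earlier inner products of the vectors to come. -/
def search (leaf : ℕ → List (List ℤ) → Bool) :
    List (ℕ × List ℤ) → ℕ → List (List ℤ) → Bool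
  | [], n, imgs => leaf n imgs
  | r :: rows, n, imgs =>
    Nat.ble r.1 4 && scan n r.1 (imgs.zip r.2) fun c s =>
      Nat.ble s 3 && search leaf rows (n + s) (imgs ++ [c ++ List.replicate s 1])

/-- The given vectors fit the rows. -/
def Fits : List (E → ℤ) → List (E → ℤ) → List (ℕ × List ℤ) → Prop
  | _, [], [] => True
  | done, W :: todo, r :: rows =>
    W ⬝ᵥ W = (r.1 : ℤ) ∧ done.map (W ⬝ᵥ ·) = r.2 ∧ Fits (done ++ [W]) todo rows
  | _, _, _ => False

theorem search_sound {Goal : Prop} (vecs : List (E → ℤ)) (leaf : ℕ → List (List ℤ) → Bool)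
    (hleaf : ∀ (l : List (E → ℤ)) (imgs : List (List ℤ)), ON l → (∀ c ∈ imgs, c.length ≤ l.length) →
      vecs = imgs.map (comb l) → leaf l.length imgs = true → Goal) :
    ∀ (rows : List (ℕ × List ℤ)) (l : List (E → ℤ)) (imgs : List (List ℤ)) (todo : List (E → ℤ)),
      search leaf rows l.length imgs = true → ON l → (∀ c ∈ imgs, c.length ≤ l.length) →
      Fits (imgs.map (comb l)) todo rows → imgs.map (comb l) ++ todo = vecs → Goal
  | [], l, imgs, todo, hs, hl, hlen, hF, hv => by
    cases todo with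
    | nil =>
      exact hleaf l imgs hl hlen (by simpa using hv.symm) hs
    | cons W todo => exact hF.elim
  | r :: rows, l, imgs, todo, hs, hl, hlen, hF, hv => by
    cases todo with
    | nil => exact hF.elim
    | cons W todo =>
      obtain ⟨hN, hg, hF'⟩ := hF
      simp only [search, Bool.and_eq_true] at hs
      obtain ⟨hb, hs⟩ := hs
      have hb' : r.1 ≤ 4 := Nat.le_of_ble_eq_true hb
      set c := l.map (W ⬝ᵥ ·) with hc
      have hcl : c.length = l.length := by simp [hc]
      have hbes := bessel_list W hl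
      rw [← hc, hN] at hbes
      have hchk : ∀ ig ∈ imgs.zip r.2, dotL c ig.1 = ig.2 := by
        apply zip_of_eq
        rw [← hg]
        simp only [List.map_map]
        apply List.map_congr_left
        intro a _
        simp only [Function.comp]
        rw [dot_comb]
      have := scan_sound _ _ _ _ hs hb' c hcl hbes hchk
      simp only [Bool.and_eq_true] at this
      obtain ⟨h3, hs'⟩ := this
      have hnn := dotL_self_nonneg c
      set s := r.1 - (dotL c c).toNat with hsdef
      have hs3 : s ≤ 3 := Nat.le_of_ble_eq_true h3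
      have hsN : W ⬝ᵥ W - dotL c c = (s : ℤ) := by
        rw [hN]
        omega
      obtain ⟨new, hnew, hON, hW⟩ := extend W hl s hs3 hsN
      have hlen' : (l ++ new).length = l.length + s := by simp [hnew]
      have hcomb : imgs.map (comb (l ++ new)) = imgs.map (comb l) := by
        apply List.map_congr_left
        intro a ha
        exact comb_append l new a (hlen a ha)
      refine search_sound vecs leaf hleaf rows (l ++ new) (imgs ++ [c ++ List.replicate s 1]) todo
        ?_ hON ?_ ?_ ?_
      · rw [hlen']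
        exact hs'
      · intro d hd
        rcases List.mem_append.1 hd with hd | hd
        · have := hlen d hd
          rw [hlen']
          omega
        · rw [List.mem_singleton] at hd
          subst hd
          simp [hnew, hcl]
      · rw [List.map_append, hcomb]
        simp only [List.map_cons, List.map_nil]
        rw [← hW]
        exact hF'
      · rw [List.map_append, hcomb]
        simp only [List.map_cons, List.map_nil]
        rw [← hW, ← hv]
        simp

/-! ### Leaves of the search -/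

/-- Sum of coefficient lists. -/
def addL : List ℤ → List ℤ → List ℤ
  | [], b => b
  | x :: xs, [] => x :: xs
  | x :: xs, y :: ys => (x + y) :: addL xs ys

/-- Multiple of a coefficient list. -/
def smulL (k : ℤ) (a : List ℤ) : List ℤ := a.map (k * ·)

/-- Equality of coefficient lists, up to zeros at the end. -/
def eqL : List ℤ → List ℤ → Bool
  | [], b => b.all (· == 0)
  | x :: xs, [] => (x == 0) && eqL xs []
  | x :: xs, y :: ys => (x == y) && eqL xs ys

theorem comb_addL : ∀ (l : List (E → ℤ)) (a b : List ℤ), comb l (addL a b) = comb l a + comb l b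
  | [], a, b => by simp
  | u :: l, [], b => by simp [addL]
  | u :: l, x :: xs, [] => by simp [addL]
  | u :: l, x :: xs, y :: ys => by
    simp only [addL, comb_cons, comb_addL l xs ys, add_smul]
    abel

theorem comb_smulL : ∀ (l : List (E → ℤ)) (k : ℤ) (a : List ℤ), comb l (smulL k a) = k • comb l a
  | [], k, a => by simp
  | u :: l, k, [] => by simp [smulL]
  | u :: l, k, x :: xs => by
    have := comb_smulL l k xs
    simp only [smulL] at this
    simp only [smulL, List.map_cons, comb_cons, this, smul_add, mul_smul]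

theorem comb_of_eqL : ∀ (l : List (E → ℤ)) (a b : List ℤ), eqL a b = true → comb l a = comb l b
  | [], a, b, _ => by simp
  | u :: l, [], [], _ => rfl
  | u :: l, x :: xs, [], h => by
    simp only [eqL, Bool.and_eq_true, beq_iff_eq] at h
    have := comb_of_eqL l xs [] h.2
    simp [h.1, this]
  | u :: l, [], y :: ys, h => by
    have h' : y = 0 ∧ eqL [] ys = true := by
      simpa [eqL] using h
    have := comb_of_eqL l [] ys h'.2
    simp only [comb_nil'] at this
    simp [h'.1, ← this]
  | u :: l, x :: xs, y :: ys, h => by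
    simp only [eqL, Bool.and_eq_true, beq_iff_eq] at h
    simp [h.1, comb_of_eqL l xs ys h.2]

/-- An integer combination of coefficient lists. -/
def lin : List ℤ → List (List ℤ) → List ℤ
  | k :: ks, a :: as => addL (smulL k a) (lin ks as)
  | _, _ => []

theorem comb_lin (l : List (E → ℤ)) : ∀ (ks : List ℤ) (as : List (List ℤ)),
    comb l (lin ks as) = comb (as.map (comb l)) ks
  | [], as => by simp [lin]
  | k :: ks, [] => by simp [lin]
  | k :: ks, a :: as => by
    simp only [lin, comb_addL, comb_smulL, comb_lin l ks as, List.map_cons, comb_cons]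

/-- A degree certificate: combination `ce.1` of the images is `ce.2.2` times the unit `ce.2.1`. -/
def certOK (n : ℕ) (imgs : List (List ℤ)) (ce : List ℤ × List ℤ × ℤ) : Bool :=
  Nat.ble ce.2.1.length n && (dotL ce.2.1 ce.2.1 == 1) &&
    eqL (lin ce.1 imgs) (smulL ce.2.2 ce.2.1) && (ce.2.2 != 0) &&
    ((ce.1.headD 0 == 0) || (ce.1.headD 0 % ce.2.2 != 0))

theorem comb_dv {x : E → ℤ} {rest : List (E → ℤ)} {dv : E → ℤ} (hx : x ⬝ᵥ dv = 1)
    (hrest : ∀ v ∈ rest, v ⬝ᵥ dv = 0) (ks : List ℤ) :
    comb (x :: rest) ks ⬝ᵥ dv = ks.headD 0 := by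
  cases ks with
  | nil => simp
  | cons k ks =>
    have h : comb rest ks ⬝ᵥ dv = 0 := by
      rw [dotProduct_comm]
      exact orth_comb (fun u hu => by rw [dotProduct_comm]; exact hrest u hu) ks
    simp only [comb_cons, add_dotProduct, smul_dotProduct, hx, h, smul_eq_mul, List.headD_cons]
    ring

theorem certOK_false {l : List (E → ℤ)} (hl : ON l) {imgs : List (List ℤ)} {x : E → ℤ}
    {rest : List (E → ℤ)} {dv : E → ℤ} (hdv : ∀ u : E → ℤ, IsU u → u ⬝ᵥ dv ≠ 0) (hx : x ⬝ᵥ dv = 1)
    (hrest : ∀ v ∈ rest, v ⬝ᵥ dv = 0) (hv : x :: rest = imgs.map (comb l))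
    {ce : List ℤ × List ℤ × ℤ} (h : certOK l.length imgs ce = true) : False := by
  obtain ⟨lam, a, k⟩ := ce
  simp only [certOK, Bool.and_eq_true, Bool.or_eq_true, beq_iff_eq, bne_iff_ne, ne_eq] at h
  obtain ⟨⟨⟨⟨h1, h2⟩, h3⟩, h4⟩, h5⟩ := h
  have hu : IsU (comb l a) := by
    unfold IsU
    rw [comb_dot_comb hl a a (Nat.le_of_ble_eq_true h1), h2]
  have h6 := comb_of_eqL l _ _ h3
  rw [comb_lin, ← hv, comb_smulL] at h6
  have h7 := comb_dv (ks := lam) hx hrest
  rw [h6, smul_dotProduct, smul_eq_mul] at h7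
  have h8 := hdv _ hu
  rcases h5 with h5 | h5
  · rw [h5] at h7
    exact (mul_ne_zero h4 h8) h7
  · apply h5
    rw [← h7]
    simp

/-- Orthonormal coefficient lists. -/
def ONL : List (List ℤ) → Bool
  | [] => true
  | x :: xs => (dotL x x == 1) && xs.all (fun y => dotL x y == 0) && ONL xs

theorem ON_of_ONL {l : List (E → ℤ)} (hl : ON l) : ∀ (xs : List (List ℤ)),
    (∀ x ∈ xs, x.length ≤ l.length) → ONL xs = true → ON (xs.map (comb l))
  | [], _, _ => trivial
  | x :: xs, hlen, h => by
    simp only [ONL, Bool.and_eq_true, beq_iff_eq, List.all_eq_true] at h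
    obtain ⟨⟨h1, h2⟩, h3⟩ := h
    have hx := hlen x (by simp)
    refine ⟨?_, ?_, ON_of_ONL hl xs (fun y hy => hlen y (by simp [hy])) h3⟩
    · unfold IsU
      rw [comb_dot_comb hl x x hx, h1]
    · intro u hu
      obtain ⟨y, hy, rfl⟩ := List.mem_map.1 hu
      rw [comb_dot_comb hl x y hx]
      simpa using h2 y hy

/-- The standard form of the configuration. -/
def stdOK (n : ℕ) (imgs : List (List ℤ)) (s : List (List ℤ)) : Bool :=
  match imgs, s with
  | [ie, i1, i2, iR1, iR2, iR4, iR7, _, _], [u2, u3, u4, u6, u6p, u8, u8p, f, fp] =>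
    s.all (fun x => Nat.ble x.length n) && ONL [ie, u2, u3, u4, u6, u6p, u8, u8p, f, fp] &&
    eqL i1 (addL u6 (smulL (-1) u6p)) && eqL i2 (addL u8 (smulL (-1) u8p)) &&
    eqL iR1 (addL (addL u3 u4) (smulL (-1) u6)) && eqL iR2 (addL (addL u2 u6) (smulL (-1) u8)) &&
    eqL iR4 (addL (addL (addL ie u2) u3) (smulL (-1) f)) &&
    eqL iR7 (addL (addL (addL ie u4) u8) (smulL (-1) fp))
  | _, _ => false

/-- The conclusion of the search. -/
def Std648 (e0 t1 t2 R1 R2 R4 R7 : E → ℤ) : Prop :=
  ∃ U2 U3 U4 U6 U6' U8 U8' F F' : E → ℤ, ON [e0, U2, U3, U4, U6, U6', U8, U8', F, F'] ∧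
    t1 = U6 - U6' ∧ t2 = U8 - U8' ∧ R1 = U3 + U4 - U6 ∧ R2 = U2 + U6 - U8 ∧
    R4 = e0 + U2 + U3 - F ∧ R7 = e0 + U4 + U8 - F'

theorem stdOK_sound {l : List (E → ℤ)} (hl : ON l) {imgs : List (List ℤ)}
    (hlen : ∀ c ∈ imgs, c.length ≤ l.length) {e0 t1 t2 R1 R2 R4 R7 R5 R6 : E → ℤ}
    (hv : [e0, t1, t2, R1, R2, R4, R7, R5, R6] = imgs.map (comb l)) {s : List (List ℤ)}
    (h : stdOK l.length imgs s = true) : Std648 e0 t1 t2 R1 R2 R4 R7 := by
  match imgs, s, hlen, hv, h with
  | [ie, i1, i2, iR1, iR2, iR4, iR7, i5, i6], [u2, u3, u4, u6, u6p, u8, u8p, f, fp], hlen, hv, h =>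
    simp only [stdOK, Bool.and_eq_true, List.all_eq_true] at h
    obtain ⟨⟨⟨⟨⟨⟨⟨h0, hON⟩, h1⟩, h2⟩, h3⟩, h4⟩, h5⟩, h6⟩ := h
    simp only [List.map_cons, List.map_nil, List.cons.injEq, and_true] at hv
    obtain ⟨rfl, rfl, rfl, rfl, rfl, rfl, rfl, rfl, rfl⟩ := hv
    have hL : ∀ x ∈ [ie, u2, u3, u4, u6, u6p, u8, u8p, f, fp], x.length ≤ l.length := by
      intro x hx
      rcases List.mem_cons.1 hx with rfl | hx
      · exact hlen _ (by simp)
      · exact Nat.le_of_ble_eq_true (h0 x hx)
    have := ON_of_ONL hl _ hL hON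
    simp only [List.map_cons, List.map_nil] at this
    refine ⟨_, _, _, _, _, _, _, _, _, this, ?_, ?_, ?_, ?_, ?_, ?_⟩
    · rw [comb_of_eqL l _ _ h1]
      simp only [comb_addL, comb_smulL]
      abel
    · rw [comb_of_eqL l _ _ h2]
      simp only [comb_addL, comb_smulL]
      abel
    · rw [comb_of_eqL l _ _ h3]
      simp only [comb_addL, comb_smulL]
      abel
    · rw [comb_of_eqL l _ _ h4]
      simp only [comb_addL, comb_smulL]
      abel
    · rw [comb_of_eqL l _ _ h5]
      simp only [comb_addL, comb_smulL]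
      abel
    · rw [comb_of_eqL l _ _ h6]
      simp only [comb_addL, comb_smulL]
      abel
  | [], _, _, _, h => simp [stdOK] at h
  | _ :: _, [], _, _, h => simp [stdOK] at h

def sigs648 : List (List (List ℤ)) :=
  [[[0, 0, 0, 0, 0, 0, 0, 1], [0, 0, 0, 0, 0, 0, 1], [0, 0, 0, 0, 0, 1], [0, 0, 1], [0, (-1)], [0, 0, 0, 0, 1], [0, 0, 0, (-1)], [0, 0, 0, 0, 0, 0, 0, 0, (-1)], [0, 0, 0, 0, 0, 0, 0, 0, 0, (-1)]],
   [[0, 0, 0, 0, 0, 0, 0, 1], [0, 0, 0, 0, 0, 1], [0, 0, 0, 0, 0, 0, 1], [0, 0, 1], [0, (-1)], [0, 0, 0, 0, 1], [0, 0, 0, (-1)], [0, 0, 0, 0, 0, 0, 0, 0, (-1)], [0, 0, 0, 0, 0, 0, 0, 0, 0, (-1)]],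
   [[0, 0, 0, 0, 0, 0, 0, 1], [0, 0, 0, 0, 0, 0, 1], [0, 0, 0, 0, 0, 1], [0, 0, 1], [0, (-1)], [0, 0, 0, 1], [0, 0, 0, 0, (-1)], [0, 0, 0, 0, 0, 0, 0, 0, (-1)], [0, 0, 0, 0, 0, 0, 0, 0, 0, (-1)]],
   [[0, 0, 0, 0, 0, 0, 0, 1], [0, 0, 0, 0, 0, 1], [0, 0, 0, 0, 0, 0, 1], [0, 0, 1], [0, (-1)], [0, 0, 0, 1], [0, 0, 0, 0, (-1)], [0, 0, 0, 0, 0, 0, 0, 0, (-1)], [0, 0, 0, 0, 0, 0, 0, 0, 0, (-1)]],
   [[0, 0, 0, 0, 0, 0, 0, 1], [0, 0, 0, 0, 0, 0, 1], [0, 0, 0, 0, 0, 1], [0, 1], [0, 0, (-1)], [0, 0, 0, 0, 1], [0, 0, 0, (-1)], [0, 0, 0, 0, 0, 0, 0, 0, (-1)], [0, 0, 0, 0, 0, 0, 0, 0, 0, (-1)]],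
   [[0, 0, 0, 0, 0, 0, 0, 1], [0, 0, 0, 0, 0, 1], [0, 0, 0, 0, 0, 0, 1], [0, 1], [0, 0, (-1)], [0, 0, 0, 0, 1], [0, 0, 0, (-1)], [0, 0, 0, 0, 0, 0, 0, 0, (-1)], [0, 0, 0, 0, 0, 0, 0, 0, 0, (-1)]],
   [[0, 0, 0, 0, 0, 0, 0, 1], [0, 0, 0, 0, 0, 0, 1], [0, 0, 0, 0, 0, 1], [0, 1], [0, 0, (-1)], [0, 0, 0, 1], [0, 0, 0, 0, (-1)], [0, 0, 0, 0, 0, 0, 0, 0, (-1)], [0, 0, 0, 0, 0, 0, 0, 0, 0, (-1)]],
   [[0, 0, 0, 0, 0, 0, 0, 1], [0, 0, 0, 0, 0, 1], [0, 0, 0, 0, 0, 0, 1], [0, 1], [0, 0, (-1)], [0, 0, 0, 1], [0, 0, 0, 0, (-1)], [0, 0, 0, 0, 0, 0, 0, 0, (-1)], [0, 0, 0, 0, 0, 0, 0, 0, 0, (-1)]]]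

def certs648 : List (List ℤ × List ℤ × ℤ) :=
  [([0, 2, 0, 1, 0, 0, 0, (-1), 0], [0, 1], 3),
   ([(-6), 10, 3, 5, 6, 5, 1, (-4), (-1)], [0, 1], 21),
   ([6, 11, (-3), (-5), (-6), (-5), (-1), 4, 1], [0, 1], 21),
   ([0, 1, 0, (-1), 0, 0, 0, 1, 0], [0, 1], 3)]


/-- The check at a leaf. -/
def leaf648 (n : ℕ) (imgs : List (List ℤ)) : Bool :=
  certs648.any (certOK n imgs) || sigs648.any (stdOK n imgs)

/-- The rows: norm and inner products with `e0, t1, t2, R1, R2, R4, R7, R5`. -/
def rows648 : List (ℕ × List ℤ) :=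
  [(2, [0]), (2, [0, 0]), (3, [0, -1, 0]), (3, [0, 1, -1, -1]), (4, [1, 0, 0, 1, 1]),
   (4, [1, 0, 1, 1, -1, 1]), (4, [0, 0, 0, 1, 1, 1, 1]), (4, [0, 0, 1, 1, -1, 1, 1, 1])]

theorem search648 : search leaf648 rows648 1 [[1]] = true := by decide +kernel

/-- The coherence statement. -/
theorem coh648 {e0 t1 t2 R1 R2 R4 R7 R5 R6 dv : E → ℤ}
    (hdv : ∀ u : E → ℤ, IsU u → u ⬝ᵥ dv ≠ 0) (he : IsU e0) (hed : e0 ⬝ᵥ dv = 1)
    (hd : ∀ v ∈ [t1, t2, R1, R2, R4, R7, R5, R6], v ⬝ᵥ dv = 0)
    (hF : Fits [e0] [t1, t2, R1, R2, R4, R7, R5, R6] rows648) :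
    Std648 e0 t1 t2 R1 R2 R4 R7 := by
  refine search_sound [e0, t1, t2, R1, R2, R4, R7, R5, R6] leaf648 ?_ rows648 [e0] [[1]]
    [t1, t2, R1, R2, R4, R7, R5, R6] search648 ⟨he, by simp, trivial⟩ (by simp) ?_ ?_
  · intro l imgs hl hlen hv hleaf
    simp only [leaf648, Bool.or_eq_true, List.any_eq_true] at hleaf
    rcases hleaf with ⟨ce, -, hce⟩ | ⟨s, -, hs⟩
    · exact (certOK_false hl hdv hed hd hv hce).elim
    · exact stdOK_sound hl hlen hv hs
  · simpa using hF
  · simp

end Cfsg.Agent.Lib.Coh648
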