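import Cfsg.Agent.Lib.CompLenBase

/-!
# Composition length of permutation groups: a transitive abelian normal subgroup
-/

set_option autoImplicit false
set_option linter.unusedSectionVars false
set_option linter.unusedVariables false

namespace Cfsg.Agent.Lib.CompLenAb

open Equiv ArithmeticFunction Cfsg.Agent.Lib.SubnChain

theorem two_pow_cardFactors_le (n : ℕ) : n ≠ 0 → 2 ^ cardFactors n ≤ n := by
  induction n using Nat.recOnMul with
  | zero => simp
  | one => simp
  | prime p hp =>
    intro _
    rw [cardFactors_apply_prime hp]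
    simpa using hp.two_le
  | mul a b ha hb =>
    intro hab
    have ha0 : a ≠ 0 := fun h => hab (by simp [h])
    have hb0 : b ≠ 0 := fun h => hab (by simp [h])
    rw [cardFactors_mul ha0 hb0, pow_add]
    exact Nat.mul_le_mul (ha ha0) (hb hb0)

theorem numeric_small : ∀ n < 16, ∀ d < 4, ∀ t < 4, 2 ≤ n → 2 ^ d ≤ n → 2 ^ t ≤ n - 1 →
    (n = 5 → d ≤ 1) → (n = 9 → d ≤ 2) → 3 * (d * (1 + t)) + 4 ≤ 4 * n := by
  intro n hn d hd t ht
  interval_cases n <;> interval_cases d <;> interval_cases t <;> simp

theorem numeric_large (u : ℕ) (hu : 4 ≤ u) : 3 * (u * (1 + u)) + 4 ≤ 4 * 2 ^ u := by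
  induction u, hu using Nat.le_induction with
  | base => norm_num
  | succ u hu ih =>
    rw [pow_succ]
    have : 3 * ((u + 1) * (1 + (u + 1))) + 4 ≤ 2 * (3 * (u * (1 + u)) + 4) := by nlinarith
    omega

theorem numeric (n d t : ℕ) (hn : 2 ≤ n) (hd : 2 ^ d ≤ n) (ht : 2 ^ t ≤ n - 1)
    (h5 : n = 5 → d ≤ 1) (h9 : n = 9 → d ≤ 2) : 3 * (d * (1 + t)) + 4 ≤ 4 * n := by
  by_cases hlt : n < 16
  · have hd' : d < 4 := by
      by_contra h
      have : 2 ^ 4 ≤ 2 ^ d := Nat.pow_le_pow_right (by norm_num) (by omega)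
      omega
    have ht' : t < 4 := by
      by_contra h
      have : 2 ^ 4 ≤ 2 ^ t := Nat.pow_le_pow_right (by norm_num) (by omega)
      omega
    exact numeric_small n hlt d hd' t ht' hn hd ht h5 h9
  · have hn0 : n ≠ 0 := by omega
    have hu : 4 ≤ Nat.log 2 n := Nat.le_log_of_pow_le (by norm_num) (by norm_num; omega)
    have hdu : d ≤ Nat.log 2 n := Nat.le_log_of_pow_le (by norm_num) hd
    have htu : t ≤ Nat.log 2 n := Nat.le_log_of_pow_le (by norm_num) (by omega)
    have h2 : 2 ^ Nat.log 2 n ≤ n := Nat.pow_log_le_self 2 hn0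
    have h3 := numeric_large _ hu
    have h4 : d * (1 + t) ≤ Nat.log 2 n * (1 + Nat.log 2 n) :=
      Nat.mul_le_mul hdu (by omega)
    omega

theorem numeric_cardFactors (n : ℕ) (hn : 2 ≤ n) :
    3 * (cardFactors n * (1 + Nat.log 2 (n - 1))) + 4 ≤ 4 * n := by
  refine numeric n _ _ hn (two_pow_cardFactors_le n (by omega)) (Nat.pow_log_le_self 2 (by omega))
    ?_ ?_
  · rintro rfl
    rw [cardFactors_apply_prime (by norm_num)]
  · rintro rfl
    rw [show (9 : ℕ) = 3 ^ 2 by norm_num, cardFactors_apply_prime_pow (by norm_num)]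

theorem cardFactors_le_log (n i : ℕ) (h1 : 1 ≤ i) (h2 : i ≤ n) : cardFactors i ≤ Nat.log 2 n := by
  have h3 := two_pow_cardFactors_le i (by omega)
  exact Nat.le_log_of_pow_le (by norm_num) (h3.trans h2)

section Base

variable {X : Type} [Finite X]

theorem card_step (α x : X) (C : Subgroup (Perm X)) (hC : ∀ g ∈ C, g α = α) (hx : x ≠ α) :
    ∃ C' : Subgroup (Perm X), (∀ g, g ∈ C' ↔ g ∈ C ∧ g x = x) ∧
      ∃ i, 1 ≤ i ∧ i ≤ Nat.card X - 1 ∧ Nat.card C = Nat.card C' * i := by
  classical
  let H : Subgroup ↥C := MulAction.stabilizer (↥C) x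
  refine ⟨H.map C.subtype, ?_, H.index, ?_, ?_, ?_⟩
  · intro g
    constructor
    · rintro ⟨h, hh, rfl⟩
      exact ⟨h.2, hh⟩
    · rintro ⟨h1, h2⟩
      exact ⟨⟨g, h1⟩, h2, rfl⟩
  · exact Nat.one_le_iff_ne_zero.mpr Subgroup.index_ne_zero_of_finite
  · rw [MulAction.index_stabilizer]
    have h1 := Set.ncard_add_ncard_compl (MulAction.orbit (↥C) x)
    have h2 : (MulAction.orbit (↥C) x)ᶜ.Nonempty := by
      refine ⟨α, ?_⟩
      rintro ⟨g, hg⟩
      have h3 : g.1 x = α := hg
      have h4 : g.1 α = α := hC g.1 g.2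
      exact hx (g.1.injective (h3.trans h4.symm))
    have h3 := (Set.ncard_pos (Set.toFinite _)).mpr h2
    omega
  · rw [Subgroup.card_map_of_injective (Subgroup.subtype_injective C)]
    exact (Subgroup.card_mul_index H).symm

theorem stab_list (α : X) (t : ℕ) (ht : ∀ i, 1 ≤ i → i ≤ Nat.card X - 1 → cardFactors i ≤ t) :
    ∀ xs : List X, (∀ x ∈ xs, x ≠ α) → ∀ C : Subgroup (Perm X), (∀ g ∈ C, g α = α) →
      (∀ g ∈ C, (∀ x ∈ xs, g x = x) → g = 1) → cardFactors (Nat.card C) ≤ xs.length * t := by
  intro xs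
  induction xs with
  | nil =>
    intro _ C _ h1
    have : C = ⊥ := by
      rw [eq_bot_iff]
      intro g hg
      rw [Subgroup.mem_bot]
      exact h1 g hg (by simp)
    subst this
    simp
  | cons x xs ih =>
    intro hxs C hC h1
    obtain ⟨C', hC', i, hi1, hi2, hcard⟩ := card_step α x C hC (hxs x (by simp))
    have h2 := ih (fun y hy => hxs y (by simp [hy])) C'
      (fun g hg => hC g ((hC' g).1 hg).1)
      (fun g hg hy => h1 g ((hC' g).1 hg).1 (by
        intro z hz
        rcases List.mem_cons.mp hz with rfl | hz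
        · exact ((hC' g).1 hg).2
        · exact hy z hz))
    rw [hcard, cardFactors_mul Nat.card_pos.ne' (by omega)]
    have h3 := ht i hi1 hi2
    simp only [List.length_cons, add_mul, one_mul]
    omega

end Base

section Greedy

variable {G : Type} [Group G] [Finite G]

theorem greedy (N : Subgroup G) : ∀ (m : ℕ) (P : Subgroup G), P ≤ N → Nat.card N - Nat.card P = m →
    ∃ vs : List G, (∀ v ∈ vs, v ∈ N ∧ v ≠ 1) ∧ P ⊔ Subgroup.closure {v | v ∈ vs} = N ∧
      vs.length + cardFactors (Nat.card P) ≤ cardFactors (Nat.card N) := by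
  intro m
  induction m using Nat.strong_induction_on with
  | _ m ih =>
    intro P hP hm
    by_cases hPN : P = N
    · subst hPN
      exact ⟨[], by simp, by simp, by simp⟩
    · have hlt : P < N := lt_of_le_of_ne hP hPN
      obtain ⟨v, hv, hvP⟩ := SetLike.exists_of_lt hlt
      let P' : Subgroup G := P ⊔ Subgroup.closure {v}
      have hPP' : P < P' := by
        refine lt_of_le_of_ne le_sup_left ?_
        intro he
        exact hvP (he ▸ (Subgroup.mem_sup_right (Subgroup.subset_closure rfl) : v ∈ P'))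
      have hP'N : P' ≤ N := sup_le hP ((Subgroup.closure_le _).2 (by
        rintro _ rfl
        exact hv))
      have hc1 : Nat.card P < Nat.card P' := by
        have h1 := Subgroup.card_le_of_le hPP'.le
        refine lt_of_le_of_ne h1 ?_
        intro he
        exact hPP'.ne (Subgroup.eq_of_le_of_card_ge hPP'.le he.ge)
      have hc2 : Nat.card P' ≤ Nat.card N := Subgroup.card_le_of_le hP'N
      obtain ⟨vs, h1, h2, h3⟩ := ih (Nat.card N - Nat.card P') (by omega) P' hP'N rfl
      refine ⟨v :: vs, ?_, ?_, ?_⟩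
      · intro w hw
        rcases List.mem_cons.mp hw with rfl | hw
        · refine ⟨hv, ?_⟩
          rintro rfl
          exact hvP P.one_mem
        · exact h1 w hw
      · apply le_antisymm
        · refine sup_le hP ((Subgroup.closure_le _).2 ?_)
          intro w hw
          rcases List.mem_cons.mp hw with rfl | hw
          · exact hv
          · exact (h1 w hw).1
        · rw [← h2]
          refine sup_le (sup_le le_sup_left ?_) ?_
          · refine le_trans ?_ le_sup_right
            exact Subgroup.closure_mono (by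
              rintro _ rfl
              simp)
          · refine le_trans ?_ le_sup_right
            exact Subgroup.closure_mono (fun w hw => List.mem_cons_of_mem _ hw)
      · have := card_step_cardFactors hPP'
        simp only [List.length_cons]
        omega

end Greedy

/-- The abelian case. -/
theorem abelian_case {X : Type} [Finite X] (A N : Subgroup (Perm X)) (hNA' : N ≤ A)
    (hNA : ∀ g ∈ A, ∀ b ∈ N, g * b * g⁻¹ ∈ N) (hab : ∀ x ∈ N, ∀ y ∈ N, x * y = y * x)
    (htr : ∀ x y, ∃ h ∈ N, h x = y) (hn : 2 ≤ Nat.card X) (l : ℕ) (h : SC ⊥ A l) :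
    3 * l + 4 ≤ 4 * Nat.card X := by
  classical
  have hne : Nonempty X := (Nat.card_pos_iff.mp (by omega)).1
  obtain ⟨α⟩ := hne
  have hsemi : ∀ k ∈ N, k α = α → k = 1 := by
    intro k hk hkα
    ext x
    obtain ⟨m, hm, rfl⟩ := htr α x
    have : k (m α) = (k * m) α := rfl
    rw [this, hab k hk m hm]
    show m (k α) = _
    rw [hkα]
    rfl
  have hcard : Nat.card N = Nat.card X := by
    refine Nat.card_congr (Equiv.ofBijective (fun k : ↥N => k.1 α) ⟨?_, ?_⟩)
    · intro k₁ k₂ hk
      have h1 : (k₂.1⁻¹ * k₁.1) α = α := by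
        have hk' : k₁.1 α = k₂.1 α := hk
        show k₂.1⁻¹ (k₁.1 α) = α
        rw [hk']
        simp
      have h2 := hsemi _ (N.mul_mem (N.inv_mem k₂.2) k₁.2) h1
      apply Subtype.ext
      have := eq_inv_of_mul_eq_one_right h2
      simpa using this
    · intro x
      obtain ⟨k, hk, rfl⟩ := htr α x
      exact ⟨⟨k, hk⟩, rfl⟩
  obtain ⟨a, b, h1, h2, hl⟩ := h.split_bot hNA' hNA
  have ha : a ≤ cardFactors (Nat.card X) := by
    rw [← hcard]
    exact h1.le_cardFactors
  let S : Subgroup (Perm X) := MulAction.stabilizer (Perm X) α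
  have hS : ∀ g, g ∈ S ↔ g α = α := fun g => Iff.rfl
  have h3 := h2.inf_stab S (by
    intro c hc
    obtain ⟨k, hk, hkα⟩ := htr α (c α)
    refine ⟨k, hk, k⁻¹ * c, ?_, by simp⟩
    rw [hS]
    show k⁻¹ (c α) = α
    rw [← hkα]
    simp)
  have e1 : N ⊓ S = ⊥ := by
    rw [eq_bot_iff]
    rintro g ⟨hg1, hg2⟩
    rw [Subgroup.mem_bot]
    exact hsemi g hg1 hg2
  rw [e1] at h3
  have hb := h3.le_cardFactors
  obtain ⟨vs, hv1, hv2, hv3⟩ := greedy N _ ⊥ bot_le rfl
  rw [bot_sup_eq] at hv2
  have hvs : vs.length ≤ cardFactors (Nat.card X) := by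
    rw [← hcard]
    omega
  have hbase := stab_list α (Nat.log 2 (Nat.card X - 1))
    (fun i hi1 hi2 => cardFactors_le_log _ i hi1 hi2) (vs.map fun v => v α)
    (by
      intro x hx
      obtain ⟨v, hv, rfl⟩ := List.mem_map.mp hx
      intro hvα
      exact (hv1 v hv).2 (hsemi v (hv1 v hv).1 hvα))
    (A ⊓ S)
    (fun g hg => hg.2)
    (by
      rintro g ⟨hgA, hgS⟩ hfix
      have hgα : g α = α := hgS
      have hcen : ∀ v ∈ vs, g * v = v * g := by
        intro v hv
        have hfv : g (v α) = v α := hfix _ (List.mem_map.mpr ⟨v, hv, rfl⟩)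
        have hmem : (g * v * g⁻¹) ∈ N := hNA g hgA v (hv1 v hv).1
        have h5 : (v⁻¹ * (g * v * g⁻¹)) α = α := by
          have : g⁻¹ α = α := by
            conv_lhs => rw [← hgα]
            simp
          show v⁻¹ (g (v (g⁻¹ α))) = α
          rw [this, hfv]
          simp
        have h6 := hsemi _ (N.mul_mem (N.inv_mem (hv1 v hv).1) hmem) h5
        have h7 : g * v * g⁻¹ = v := (inv_mul_eq_one.mp h6).symm
        calc g * v = (g * v * g⁻¹) * g := by group
          _ = v * g := by rw [h7]
      have hcenN : ∀ k ∈ N, g * k = k * g := by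
        have hle : N ≤ Subgroup.centralizer {g} := by
          rw [← hv2]
          refine (Subgroup.closure_le _).2 ?_
          intro v hv
          rw [SetLike.mem_coe, Subgroup.mem_centralizer_iff]
          rintro _ rfl
          exact hcen v hv
        intro k hk
        have := hle hk
        rw [Subgroup.mem_centralizer_iff] at this
        exact this g rfl
      ext x
      obtain ⟨k, hk, rfl⟩ := htr α x
      have : g (k α) = (g * k) α := rfl
      rw [this, hcenN k hk]
      show k (g α) = _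
      rw [hgα]
      rfl)
  simp only [List.length_map] at hbase
  have hnum := numeric_cardFactors (Nat.card X) hn
  have h8 : vs.length * Nat.log 2 (Nat.card X - 1) ≤
      cardFactors (Nat.card X) * Nat.log 2 (Nat.card X - 1) := Nat.mul_le_mul_right _ hvs
  have h9 : cardFactors (Nat.card X) * (1 + Nat.log 2 (Nat.card X - 1)) =
      cardFactors (Nat.card X) + cardFactors (Nat.card X) * Nat.log 2 (Nat.card X - 1) := by ring
  rw [h9] at hnum
  omega

end Cfsg.Agent.Lib.CompLenAb
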