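import Cfsg.Agent.Lib.SubnChain

/-!
# Composition length of permutation groups: reductions

The claim `Claim n`: a subgroup `A` of `Sym X`, `|X| = n`, with an `A`-invariant surjection `X → Y`, admits
only subnormal chains of length `l` with `3 l + 4 |Y| ≤ 4 n`.  Here: restriction maps, the reduction to `|Y| = 1`,
and the reduction to primitive groups.
-/

set_option autoImplicit false
set_option linter.unusedSectionVars false
set_option linter.unusedVariables false

namespace Cfsg.Agent.Lib.CompLenBase

open Equiv Cfsg.Agent.Lib.SubnChain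

/-- The main claim. -/
def Claim (n : ℕ) : Prop :=
  ∀ (X : Type) [Finite X] (A : Subgroup (Perm X)) (Y : Type) [Finite Y] (f : X → Y),
    Nat.card X = n → Function.Surjective f → (∀ g ∈ A, ∀ x, f (g x) = f x) →
    ∀ l, SC ⊥ A l → 3 * l + 4 * Nat.card Y ≤ 4 * n

/-- Restriction to an invariant subset. -/
def restrictHom {X : Type} (B : Subgroup (Perm X)) (p : X → Prop)
    (hp : ∀ g ∈ B, ∀ x, p (g x) ↔ p x) : ↥B →* Perm {x // p x} :=
  MonoidHom.mk' (fun g => g.1.subtypePerm (hp g.1 g.2)) (by
    intro a b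
    ext x
    rfl)

@[simp] theorem restrictHom_apply {X : Type} (B : Subgroup (Perm X)) (p : X → Prop)
    (hp : ∀ g ∈ B, ∀ x, p (g x) ↔ p x) (g : ↥B) (x : {x // p x}) :
    ((restrictHom B p hp g x : {x // p x}) : X) = g.1 x := rfl

/-- Induced action on the blocks of an invariant partition given by a surjection. -/
noncomputable def blockHom {X B : Type} (A : Subgroup (Perm X)) (e : X → B)
    (he : Function.Surjective e) (hc : ∀ g ∈ A, ∀ x y, e x = e y → e (g x) = e (g y)) :
    ↥A →* Perm B :=
  MonoidHom.toHomPerm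
    { toFun := fun g => (fun b => e (g.1 (Function.surjInv he b)) : B → B)
      map_one' := by
        funext b
        simp only [OneMemClass.coe_one, Perm.coe_one, id_eq]
        exact Function.surjInv_eq he b
      map_mul' := by
        intro g h
        funext b
        simp only [Subgroup.coe_mul, Perm.coe_mul, Function.comp_apply]
        show e (g.1 (h.1 (Function.surjInv he b))) =
          e (g.1 (Function.surjInv he (e (h.1 (Function.surjInv he b)))))
        exact hc g.1 g.2 _ _ (Function.surjInv_eq he _).symm }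

theorem blockHom_apply {X B : Type} (A : Subgroup (Perm X)) (e : X → B)
    (he : Function.Surjective e) (hc : ∀ g ∈ A, ∀ x y, e x = e y → e (g x) = e (g y))
    (g : ↥A) (x : X) : blockHom A e he hc g (e x) = e (g.1 x) := by
  show e (g.1 (Function.surjInv he (e x))) = e (g.1 x)
  exact hc g.1 g.2 _ _ (Function.surjInv_eq he _)

theorem card_subtype_add {X : Type} [Finite X] (p : X → Prop) :
    Nat.card {x // p x} + Nat.card {x // ¬ p x} = Nat.card X := by
  classical
  rw [← Nat.card_sum]
  exact Nat.card_congr (Equiv.sumCompl p)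

/-- Reduction along a fibre when `|Y| ≥ 2`. -/
theorem lemmaA {n : ℕ} (IH : ∀ m < n, Claim m) (X : Type) [Finite X] (A : Subgroup (Perm X))
    (Y : Type) [Finite Y] (f : X → Y) (hX : Nat.card X = n) (hf : Function.Surjective f)
    (hA : ∀ g ∈ A, ∀ x, f (g x) = f x) (hY : 2 ≤ Nat.card Y) (l : ℕ) (h : SC ⊥ A l) :
    3 * l + 4 * Nat.card Y ≤ 4 * n := by
  classical
  have : Nontrivial Y := by
    rw [← Finite.one_lt_card_iff_nontrivial]
    omega
  obtain ⟨y₀, y₁, hy⟩ := exists_pair_ne Y
  let p : X → Prop := fun x => f x = y₀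
  have hp : ∀ g ∈ A, ∀ x, p (g x) ↔ p x := fun g hg x => by
    simp only [p, hA g hg x]
  obtain ⟨a, b, hl, ha, hb⟩ := h.hom_split (restrictHom A p hp)
  set K : Subgroup (Perm X) := (restrictHom A p hp).ker.map A.subtype with hK
  have hKA : K ≤ A := by
    rintro _ ⟨x, _, rfl⟩
    exact x.2
  have hKfix : ∀ g ∈ K, ∀ x, p x → g x = x := by
    rintro _ ⟨g, hg, rfl⟩ x hx
    have h1 : restrictHom A p hp g = 1 := hg
    have h2 := congrArg (fun σ : Perm {x // p x} => ((σ ⟨x, hx⟩ : {x // p x}) : X)) h1
    simpa using h2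
  have hq : ∀ g ∈ K, ∀ x, (¬ p (g x)) ↔ ¬ p x := fun g hg x =>
    not_congr (hp g (hKA hg) x)
  have hinj : Function.Injective (restrictHom K (fun x => ¬ p x) hq) := by
    rw [injective_iff_map_eq_one]
    intro g hg
    apply Subtype.ext
    ext x
    by_cases hx : p x
    · simpa using hKfix g.1 g.2 x hx
    · have h2 := congrArg (fun σ : Perm {x // ¬ p x} => ((σ ⟨x, hx⟩ : {x // ¬ p x}) : X)) hg
      simpa using h2
  have ha' := ha.range_of_injective _ hinj
  have hc := card_subtype_add p
  have hnep : Nonempty {x // p x} := by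
    obtain ⟨x, hx⟩ := hf y₀
    exact ⟨⟨x, hx⟩⟩
  have hneq : Nonempty {x // ¬ p x} := by
    obtain ⟨x, hx⟩ := hf y₁
    exact ⟨⟨x, fun h' => hy (h'.symm.trans hx)⟩⟩
  have hp1 : 0 < Nat.card {x // p x} := Nat.card_pos
  have hq1 : 0 < Nat.card {x // ¬ p x} := Nat.card_pos
  -- the two instances of the induction hypothesis
  have e1 := IH (Nat.card {x // p x}) (by omega) {x // p x} (restrictHom A p hp).range Unit
    (fun _ => ()) rfl (fun u => ⟨hnep.some, rfl⟩) (fun _ _ _ => rfl) b hb
  have e2 := IH (Nat.card {x // ¬ p x}) (by omega) {x // ¬ p x}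
    (restrictHom K (fun x => ¬ p x) hq).range {y // y ≠ y₀}
    (fun x => ⟨f x.1, x.2⟩) rfl
    (fun y => by
      obtain ⟨x, hx⟩ := hf y.1
      exact ⟨⟨x, fun h' => y.2 (hx.symm.trans h')⟩, Subtype.ext hx⟩)
    (by
      rintro _ ⟨g, rfl⟩ x
      apply Subtype.ext
      exact hA g.1 (hKA g.2) x.1) a ha'
  have hcY := card_subtype_add (fun y => y = y₀)
  have hc1 : Nat.card {y // y = y₀} = 1 := Nat.card_unique
  have hc2 : Nat.card {y // ¬ y = y₀} = Nat.card Y - 1 := by omega
  simp only [Nat.card_unique] at e1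
  have e3 : Nat.card {y // y ≠ y₀} = Nat.card Y - 1 := hc2
  rw [e3] at e2
  omega

/-- Reduction along a block system. -/
theorem block_case {n : ℕ} (IH : ∀ m < n, Claim m) (X : Type) [Finite X] (A : Subgroup (Perm X))
    (B : Type) [Finite B] (e : X → B) (hX : Nat.card X = n) (he : Function.Surjective e)
    (hc : ∀ g ∈ A, ∀ x y, e x = e y → e (g x) = e (g y)) (hB1 : 1 < Nat.card B)
    (hB2 : Nat.card B < n) (l : ℕ) (h : SC ⊥ A l) : 3 * l + 4 ≤ 4 * n := by
  obtain ⟨a, b, hl, ha, hb⟩ := h.hom_split (blockHom A e he hc)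
  have hnB : Nonempty B := by
    have : 0 < Nat.card B := by omega
    exact (Nat.card_pos_iff.mp this).1
  have e1 := IH (Nat.card B) hB2 B (blockHom A e he hc).range Unit (fun _ => ()) rfl
    (fun u => ⟨hnB.some, rfl⟩) (fun _ _ _ => rfl) b hb
  simp only [Nat.card_unique] at e1
  have hKfix : ∀ g ∈ (blockHom A e he hc).ker.map A.subtype, ∀ x, e (g x) = e x := by
    rintro _ ⟨g, hg, rfl⟩ x
    have h1 : blockHom A e he hc g = 1 := hg
    have h2 := blockHom_apply A e he hc g x
    rw [h1] at h2
    exact h2.symm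
  have e2 := lemmaA IH X _ B e hX he hKfix (by omega) a ha
  omega

/-- Orbits of a subgroup normalised by `A` form a block system, so for a primitive `A` a nontrivial
such subgroup is transitive. -/
theorem transitive_of_normal {X : Type} [Finite X] (A N : Subgroup (Perm X))
    (hNA : ∀ g ∈ A, ∀ b ∈ N, g * b * g⁻¹ ∈ N) (hN : N ≠ ⊥)
    (hprim : ∀ (B : Type) [Finite B] (e : X → B), Function.Surjective e →
      (∀ g ∈ A, ∀ x y, e x = e y → e (g x) = e (g y)) → Nat.card B ≤ 1 ∨ Nat.card X ≤ Nat.card B)
    (x y : X) : ∃ h ∈ N, h x = y := by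
  let s : Setoid X :=
    { r := fun x y => ∃ h ∈ N, h x = y
      iseqv :=
        { refl := fun x => ⟨1, N.one_mem, rfl⟩
          symm := by
            rintro x y ⟨h, hh, rfl⟩
            exact ⟨h⁻¹, N.inv_mem hh, by simp⟩
          trans := by
            rintro x y z ⟨h, hh, rfl⟩ ⟨k, hk, rfl⟩
            exact ⟨k * h, N.mul_mem hk hh, rfl⟩ } }
  let e : X → Quotient s := Quotient.mk s
  have he : Function.Surjective e := Quotient.mk_surjective
  have hc : ∀ g ∈ A, ∀ x y, e x = e y → e (g x) = e (g y) := by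
    intro g hg x y hxy
    obtain ⟨h, hh, rfl⟩ : ∃ h ∈ N, h x = y := Quotient.exact hxy
    apply Quotient.sound
    refine ⟨g * h * g⁻¹, hNA g hg h hh, by simp⟩
  rcases hprim (Quotient s) e he hc with h1 | h1
  · have : Subsingleton (Quotient s) := by
      have : Nonempty (Quotient s) := ⟨e x⟩
      exact Finite.card_le_one_iff_subsingleton.mp h1
    exact Quotient.exact (Subsingleton.elim (e x) (e y))
  · exfalso
    apply hN
    rw [eq_bot_iff]
    intro h hh
    have hinj : Function.Injective e := by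
      have hbij := (Function.Surjective.bijective_of_nat_card_le he h1)
      exact hbij.1
    rw [Subgroup.mem_bot]
    ext z
    have : e (h z) = e z := (Quotient.sound (s := s) ⟨h⁻¹, N.inv_mem hh, by simp⟩)
    simpa using hinj this

end Cfsg.Agent.Lib.CompLenBase
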