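import Cfsg.Agent.Lib.CompLenAb

/-!
# Composition length of permutation groups: families of commuting simple subgroups
-/

set_option autoImplicit false
set_option linter.unusedSectionVars false
set_option linter.unusedVariables false

noncomputable section

namespace Cfsg.Agent.Lib.CompLenFam

open Equiv Cfsg.Agent.Lib.SubnChain
open scoped Classical

variable {G : Type} [Group G]

/-- Conjugate of a subgroup. -/
def cj (g : G) (T : Subgroup G) : Subgroup G where
  carrier := {x | g⁻¹ * x * g ∈ T}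
  mul_mem' := by
    intro a b ha hb
    have : g⁻¹ * (a * b) * g = (g⁻¹ * a * g) * (g⁻¹ * b * g) := by group
    show g⁻¹ * (a * b) * g ∈ T
    rw [this]
    exact T.mul_mem ha hb
  one_mem' := by
    show g⁻¹ * 1 * g ∈ T
    simp
  inv_mem' := by
    intro a ha
    have : g⁻¹ * a⁻¹ * g = (g⁻¹ * a * g)⁻¹ := by group
    show g⁻¹ * a⁻¹ * g ∈ T
    rw [this]
    exact T.inv_mem ha

theorem mem_cj {g x : G} {T : Subgroup G} : x ∈ cj g T ↔ g⁻¹ * x * g ∈ T := Iff.rfl

theorem conj_mem_cj {g t : G} {T : Subgroup G} (ht : t ∈ T) : g * t * g⁻¹ ∈ cj g T := by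
  rw [mem_cj]
  simpa [mul_assoc] using ht

theorem cj_one (T : Subgroup G) : cj 1 T = T := by
  ext x
  simp [mem_cj]

theorem cj_mul (g h : G) (T : Subgroup G) : cj (g * h) T = cj g (cj h T) := by
  ext x
  simp only [mem_cj]
  have : (g * h)⁻¹ * x * (g * h) = h⁻¹ * (g⁻¹ * x * g) * h := by group
  rw [this]

theorem cj_inv_cj (g : G) (T : Subgroup G) : cj g⁻¹ (cj g T) = T := by
  rw [← cj_mul]
  simp [cj_one]

theorem cj_cj_inv (g : G) (T : Subgroup G) : cj g (cj g⁻¹ T) = T := by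
  rw [← cj_mul]
  simp [cj_one]

theorem cj_mono {g : G} {B T : Subgroup G} (h : B ≤ T) : cj g B ≤ cj g T := fun _ hx => h hx

theorem cj_eq_bot {g : G} {T : Subgroup G} (h : cj g T = ⊥) : T = ⊥ := by
  rw [eq_bot_iff]
  intro t ht
  have h1 : g * t * g⁻¹ ∈ cj g T := conj_mem_cj ht
  rw [h, Subgroup.mem_bot] at h1
  rw [Subgroup.mem_bot]
  have : t = g⁻¹ * (g * t * g⁻¹) * g := by group
  rw [this, h1]
  simp

theorem card_cj (g : G) (T : Subgroup G) : Nat.card (cj g T) = Nat.card T := by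
  refine Nat.card_congr (Equiv.ofBijective (fun x : ↥(cj g T) => (⟨g⁻¹ * x.1 * g, x.2⟩ : ↥T)) ⟨?_, ?_⟩)
  · intro x y hxy
    apply Subtype.ext
    have h1 : g⁻¹ * x.1 * g = g⁻¹ * y.1 * g := congrArg Subtype.val hxy
    simpa using h1
  · intro t
    refine ⟨⟨g * t.1 * g⁻¹, conj_mem_cj t.2⟩, ?_⟩
    apply Subtype.ext
    show g⁻¹ * (g * t.1 * g⁻¹) * g = t.1
    group

/-- The subgroup generated by a finite family of subgroups. -/
abbrev NN (I : Finset (Subgroup G)) : Subgroup G := I.sup id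

theorem le_NN {T : Subgroup G} {I : Finset (Subgroup G)} (h : T ∈ I) : T ≤ NN I :=
  Finset.le_sup (f := id) h

theorem NN_insert (T : Subgroup G) (I : Finset (Subgroup G)) : NN (insert T I) = T ⊔ NN I := by
  simp [NN, Finset.sup_insert]

theorem NN_mono {I I' : Finset (Subgroup G)} (h : I ⊆ I') : NN I ≤ NN I' := Finset.sup_mono h

theorem NN_le {I : Finset (Subgroup G)} {P : Subgroup G} (h : ∀ T ∈ I, T ≤ P) : NN I ≤ P :=
  Finset.sup_le h

theorem NN_empty : NN (∅ : Finset (Subgroup G)) = ⊥ := by simp [NN]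

theorem NN_conj {I : Finset (Subgroup G)} {g : G} (h : ∀ T ∈ I, ∀ t ∈ T, g * t * g⁻¹ ∈ T) :
    ∀ x ∈ NN I, g * x * g⁻¹ ∈ NN I := by
  intro x hx
  have hle : NN I ≤ (NN I).comap (MulAut.conj g).toMonoidHom := by
    refine NN_le (fun T hT t ht => ?_)
    show (MulAut.conj g) t ∈ NN I
    rw [MulAut.conj_apply]
    exact le_NN hT (h T hT t ht)
  have := hle hx
  simpa [MulAut.conj_apply] using this

/-- A family of simple nonabelian subgroups, pairwise commuting. -/
structure Fam (O : Finset (Subgroup G)) : Prop where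
  nonab : ∀ T ∈ O, ∃ x ∈ T, ∃ y ∈ T, x * y ≠ y * x
  simple : ∀ T ∈ O, ∀ B, B ≤ T → NI B T → B = ⊥ ∨ B = T
  comm : ∀ T₁ ∈ O, ∀ T₂ ∈ O, T₁ ≠ T₂ → ∀ x ∈ T₁, ∀ y ∈ T₂, x * y = y * x

variable {O I : Finset (Subgroup G)} {T : Subgroup G}

theorem Fam.comm_NN (hO : Fam O) (hT : T ∈ O) (hI : I ⊆ O) (hTI : T ∉ I) :
    ∀ x ∈ T, ∀ y ∈ NN I, x * y = y * x := by
  intro x hx y hy
  have h1 : NN I ≤ Subgroup.centralizer (T : Set G) := NN_le fun T' hT' z hz => by
    rw [Subgroup.mem_centralizer_iff]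
    intro w hw
    refine hO.comm T hT T' (hI hT') ?_ w hw z hz
    rintro rfl
    exact hTI hT'
  have h2 := h1 hy
  rw [Subgroup.mem_centralizer_iff] at h2
  exact h2 x hx

theorem Fam.center_triv (hO : Fam O) (hT : T ∈ O) :
    ∀ x ∈ T, (∀ y ∈ T, x * y = y * x) → x = 1 := by
  intro x hx hc
  let B : Subgroup G := T ⊓ Subgroup.centralizer (T : Set G)
  have hB : B ≤ T := inf_le_left
  have hNI : NI B T := by
    intro c hcT b hb
    have h2 : b ∈ Subgroup.centralizer (T : Set G) := hb.2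
    rw [Subgroup.mem_centralizer_iff] at h2
    have hcb : c * b = b * c := h2 c hcT
    have : c * b * c⁻¹ = b := by rw [hcb]; group
    rw [this]
    exact hb
  rcases hO.simple T hT B hB hNI with h | h
  · have hxB : x ∈ B := by
      refine ⟨hx, ?_⟩
      exact Subgroup.mem_centralizer_iff.mpr fun y hy => (hc y hy).symm
    rw [h] at hxB
    simpa using hxB
  · exfalso
    obtain ⟨u, hu, v, hv, huv⟩ := hO.nonab T hT
    have h3 : u ∈ B := h ▸ hu
    have h2 : u ∈ Subgroup.centralizer (T : Set G) := h3.2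
    rw [Subgroup.mem_centralizer_iff] at h2
    exact huv (h2 v hv).symm

theorem Fam.inf_NN (hO : Fam O) (hT : T ∈ O) (hI : I ⊆ O) (hTI : T ∉ I) : T ⊓ NN I = ⊥ := by
  rw [eq_bot_iff]
  rintro x ⟨hx1, hx2⟩
  rw [Subgroup.mem_bot]
  refine hO.center_triv hT x hx1 (fun y hy => ?_)
  exact (hO.comm_NN hT hI hTI y hy x hx2).symm

theorem Fam.bound_NN (hO : Fam O) : ∀ I : Finset (Subgroup G), I ⊆ O → ∀ l, SC ⊥ (NN I) l → l ≤ I.card := by
  intro I
  induction I using Finset.induction_on with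
  | empty =>
    intro _ l hl
    rw [NN_empty] at hl
    simpa using hl.eq_zero_of_self
  | insert T I hTI ih =>
    intro hsub l hl
    have hT : T ∈ O := hsub (Finset.mem_insert_self _ _)
    have hI : I ⊆ O := fun x hx => hsub (Finset.mem_insert_of_mem hx)
    rw [NN_insert, sup_comm] at hl
    have h1 := SC.sup_simple I.card (ih hI) (hO.simple T hT)
      (by rw [inf_comm]; exact hO.inf_NN hT hI hTI)
      (fun x hx y hy => (hO.comm_NN hT hI hTI y hy x hx).symm) hl
    rw [Finset.card_insert_of_notMem hTI]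
    exact h1

theorem Fam.normalizes_of_commuting (hO : Fam O) (hT : T ∈ O) (hI : I ⊆ O) (hTI : T ∉ I) :
    NI (NN I) (NN (insert T I)) := by
  intro c hc b hb
  rw [NN_insert] at hc
  have hcomm : ∀ x ∈ T, ∀ y ∈ NN I, x * y * x⁻¹ ∈ NN I := by
    intro x hx y hy
    rw [hO.comm_NN hT hI hTI x hx y hy]
    simpa using hy
  obtain ⟨t, ht, m, hm, rfl⟩ := mem_sup_of_normalized hcomm c hc
  have e : t * m * b * (t * m)⁻¹ = t * (m * b * m⁻¹) * t⁻¹ := by group
  rw [e]
  exact hcomm t ht _ (Subgroup.mul_mem _ (Subgroup.mul_mem _ hm hb) (Subgroup.inv_mem _ hm))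

theorem card_sup_commuting [Finite G] (M T : Subgroup G) (h : M ⊓ T = ⊥)
    (hc : ∀ x ∈ M, ∀ y ∈ T, x * y = y * x) :
    Nat.card (↥(M ⊔ T)) = Nat.card M * Nat.card T := by
  rw [← Nat.card_prod]
  symm
  refine Nat.card_congr (Equiv.ofBijective
    (fun p : ↥M × ↥T => (⟨p.1.1 * p.2.1, Subgroup.mul_mem_sup p.1.2 p.2.2⟩ : ↥(M ⊔ T))) ⟨?_, ?_⟩)
  · rintro ⟨m₁, t₁⟩ ⟨m₂, t₂⟩ he
    have h1 : m₁.1 * t₁.1 = m₂.1 * t₂.1 := congrArg Subtype.val he
    have h2 : m₂.1⁻¹ * m₁.1 = t₂.1 * t₁.1⁻¹ := by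
      rw [inv_mul_eq_iff_eq_mul, ← mul_assoc, ← h1]
      group
    have h3 : m₂.1⁻¹ * m₁.1 ∈ M ⊓ T :=
      ⟨M.mul_mem (M.inv_mem m₂.2) m₁.2, h2 ▸ T.mul_mem t₂.2 (T.inv_mem t₁.2)⟩
    rw [h, Subgroup.mem_bot] at h3
    have h4 : m₁.1 = m₂.1 := (inv_mul_eq_one.mp h3).symm
    have h5 : t₁.1 = t₂.1 := by
      rw [h4] at h1
      exact mul_left_cancel h1
    exact Prod.ext (Subtype.ext h4) (Subtype.ext h5)
  · rintro ⟨x, hx⟩
    have hcomm : ∀ b ∈ M, ∀ n ∈ T, b * n * b⁻¹ ∈ T := by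
      intro b hb n hn
      rw [hc b hb n hn]
      simpa using hn
    obtain ⟨m, hm, t, ht, rfl⟩ := mem_sup_of_normalized hcomm x hx
    exact ⟨(⟨m, hm⟩, ⟨t, ht⟩), rfl⟩

theorem Fam.card_NN [Finite G] (hO : Fam O) (c : ℕ) (hc : ∀ T ∈ O, Nat.card T = c) :
    ∀ I : Finset (Subgroup G), I ⊆ O → Nat.card (NN I) = c ^ I.card := by
  intro I
  induction I using Finset.induction_on with
  | empty =>
    intro _
    rw [NN_empty]
    simp
  | insert T I hTI ih =>
    intro hsub
    have hT : T ∈ O := hsub (Finset.mem_insert_self _ _)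
    have hI : I ⊆ O := fun x hx => hsub (Finset.mem_insert_of_mem hx)
    rw [NN_insert, sup_comm, card_sup_commuting _ _ (by rw [inf_comm]; exact hO.inf_NN hT hI hTI)
      (fun x hx y hy => (hO.comm_NN hT hI hTI y hy x hx).symm), ih hI, hc T hT,
      Finset.card_insert_of_notMem hTI, pow_succ]

theorem five_le_card [Finite G] (T : Subgroup G) {x y : G} (hx : x ∈ T) (hy : y ∈ T)
    (hxy : x * y ≠ y * x) : 5 ≤ Nat.card T := by
  have h1 : x ≠ 1 := by
    rintro rfl
    simp at hxy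
  have h2 : y ≠ 1 := by
    rintro rfl
    simp at hxy
  have h3 : x ≠ y := by
    rintro rfl
    exact hxy rfl
  have h4 : x * y ≠ 1 := by
    intro h
    have := eq_inv_of_mul_eq_one_left h
    subst this
    simp at hxy
  have h5 : y * x ≠ 1 := by
    intro h
    have := eq_inv_of_mul_eq_one_left h
    subst this
    simp at hxy
  have hsub : (({1, x, y, x * y, y * x} : Finset G) : Set G) ⊆ (T : Set G) := by
    intro z hz
    simp only [Finset.coe_insert, Finset.coe_singleton, Set.mem_insert_iff,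
      Set.mem_singleton_iff] at hz
    rcases hz with rfl | rfl | rfl | rfl | rfl
    · exact T.one_mem
    · exact hx
    · exact hy
    · exact T.mul_mem hx hy
    · exact T.mul_mem hy hx
  have hcard : ({1, x, y, x * y, y * x} : Finset G).card = 5 := by
    rw [Finset.card_insert_of_notMem, Finset.card_insert_of_notMem, Finset.card_insert_of_notMem,
      Finset.card_insert_of_notMem, Finset.card_singleton]
    · simp only [Finset.mem_singleton]
      exact hxy
    · simp only [Finset.mem_insert, Finset.mem_singleton, not_or]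
      refine ⟨?_, ?_⟩
      · intro h
        exact h1 (by simpa using h.symm)
      · intro h
        exact h1 (by simpa using h.symm)
    · simp only [Finset.mem_insert, Finset.mem_singleton, not_or]
      refine ⟨h3, ?_, ?_⟩
      · intro h
        exact h2 (by simpa using h.symm)
      · intro h
        exact h2 (by simpa using h.symm)
    · simp only [Finset.mem_insert, Finset.mem_singleton, not_or]
      exact ⟨h1.symm, h2.symm, h4.symm, h5.symm⟩
  have h6 := Set.ncard_le_ncard hsub (Set.toFinite _)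
  rw [Set.ncard_coe_finset, hcard] at h6
  have h7 : Nat.card ↥T = (T : Set G).ncard := Nat.card_coe_set_eq (T : Set G)
  omega

theorem conj_orderOf (c x : G) : orderOf (c * x * c⁻¹) = orderOf x := by
  have : c * x * c⁻¹ = (MulAut.conj c).toMonoidHom x := rfl
  rw [this]
  exact orderOf_injective _ (MulAut.conj c).injective x

theorem Fam.exists_orders [Finite G] (hO : Fam O) (hT : T ∈ O) (D : Subgroup G) (hD : D ≤ T)
    (hne : D ≠ T) : ∃ t₁ ∈ T, ∃ t₂ ∈ T, t₁ ∉ D ∧ t₂ ∉ D ∧ orderOf t₁ ≠ orderOf t₂ := by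
  by_contra hcon
  push Not at hcon
  obtain ⟨t₀, ht₀, ht₀D⟩ := SetLike.exists_of_lt (lt_of_le_of_ne hD hne)
  have hsame : ∀ t ∈ T, t ∉ D → orderOf t = orderOf t₀ := fun t ht htD =>
    hcon t ht t₀ ht₀ htD ht₀D
  set m := orderOf t₀ with hm
  let S : Set G := {x | x ∈ T ∧ orderOf x ≠ m}
  let Q : Subgroup G := Subgroup.closure S
  have hQD : Q ≤ D := by
    refine (Subgroup.closure_le _).2 ?_
    rintro x ⟨hx1, hx2⟩
    by_contra hxD
    exact hx2 (hsame x hx1 hxD)
  have hQT : Q ≤ T := hQD.trans hD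
  have hNI : NI Q T := by
    have h1 : T ≤ Subgroup.normalizer (Q : Set G) := by
      refine Subgroup.le_normalizer_closure_iff.mpr ?_
      rintro c hc x ⟨hx1, hx2⟩
      refine Subgroup.subset_closure ⟨T.mul_mem (T.mul_mem hc hx1) (T.inv_mem hc), ?_⟩
      rw [conj_orderOf]
      exact hx2
    exact Subgroup.le_normalizer_iff.mp h1
  rcases hO.simple T hT Q hQT hNI with h | h
  · have hall : ∀ x ∈ T, x ≠ 1 → orderOf x = m := by
      intro x hx hx1
      by_contra hxm
      have : x ∈ Q := Subgroup.subset_closure ⟨hx, hxm⟩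
      rw [h] at this
      exact hx1 (by simpa using this)
    have ht1 : t₀ ≠ 1 := by
      rintro rfl
      exact ht₀D D.one_mem
    have hm0 : 0 < m := orderOf_pos t₀
    have hm1 : m ≠ 1 := by
      intro h'
      exact ht1 (orderOf_eq_one_iff.mp h')
    let p := m.minFac
    have hp : p.Prime := Nat.minFac_prime hm1
    have hpm : p ∣ m := Nat.minFac_dvd m
    have hmp : m = p := by
      by_contra hne'
      have h2 : t₀ ^ p ≠ 1 := by
        intro h3
        have h4 := orderOf_dvd_of_pow_eq_one h3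
        have h5 : m ≤ p := Nat.le_of_dvd hp.pos h4
        have h6 : p ≤ m := Nat.le_of_dvd hm0 hpm
        exact hne' (le_antisymm h5 h6)
      have h3 := hall _ (T.pow_mem ht₀ p) h2
      rw [orderOf_pow_of_dvd hp.ne_zero hpm] at h3
      have h4 : m / p < m := Nat.div_lt_self hm0 hp.one_lt
      have h3' : m / p = m := h3
      omega
    haveI : Fact p.Prime := ⟨hp⟩
    have hpg : IsPGroup p ↥T := by
      rw [IsPGroup.iff_orderOf]
      rintro ⟨x, hx⟩
      by_cases hx1 : x = 1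
      · subst hx1
        exact ⟨0, by simp⟩
      · refine ⟨1, ?_⟩
        rw [Subgroup.orderOf_mk, hall x hx hx1, pow_one, hmp]
    haveI : Nontrivial ↥T := ⟨⟨⟨t₀, ht₀⟩, 1, fun h' => ht1 (congrArg Subtype.val h')⟩⟩
    haveI := hpg.center_nontrivial
    obtain ⟨z, hz⟩ := exists_ne (1 : Subgroup.center ↥T)
    have hz1 : z.1.1 = 1 := by
      refine hO.center_triv hT z.1.1 z.1.2 (fun y hy => ?_)
      have := (Subgroup.mem_center_iff.mp z.2) ⟨y, hy⟩
      exact (congrArg Subtype.val this).symm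
    exact hz (Subtype.ext (Subtype.ext hz1))
  · exact hne (le_antisymm hD (h ▸ hQD))

end Cfsg.Agent.Lib.CompLenFam
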