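import Cfsg.Agent.Lib.CompLenNA

/-!
# Composition length of permutation groups: the main induction
-/

set_option autoImplicit false
set_option linter.unusedSectionVars false
set_option linter.unusedVariables false

noncomputable section

namespace Cfsg.Agent.Lib.CompLenMain

open Equiv Cfsg.Agent.Lib.SubnChain Cfsg.Agent.Lib.CompLenBase Cfsg.Agent.Lib.CompLenAb
  Cfsg.Agent.Lib.CompLenFam Cfsg.Agent.Lib.CompLenNA
open scoped Classical

variable {X : Type}

theorem length_zero_of_subsingleton [Subsingleton X] (A : Subgroup (Perm X)) (l : ℕ) (h : SC ⊥ A l) :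
    l = 0 := by
  have hA : A = ⊥ := by
    rw [eq_bot_iff]
    intro g _
    rw [Subgroup.mem_bot]
    ext x
    exact Subsingleton.elim _ _
  subst hA
  exact h.eq_zero_of_self

theorem exists_min_subgroup {G : Type} [Group G] [Finite G] (P : Subgroup G → Prop) {A : Subgroup G}
    (hA : P A) : ∃ N, P N ∧ ∀ M, P M → M ≤ N → M = N := by
  obtain ⟨N, hN⟩ := (Set.toFinite {N | P N}).exists_minimal ⟨A, hA⟩
  refine ⟨N, hN.1, fun M hM hle => ?_⟩
  exact le_antisymm hle (hN.2 hM hle)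

/-- The primitive nonabelian situation: build the family and apply the nonabelian case. -/
theorem primitive_nonabelian {n : ℕ} (IH : ∀ m < n, Claim m) [Finite X] (A N : Subgroup (Perm X))
    (hX : Nat.card X = n) (hNA : N ≤ A) (hnorm : ∀ g ∈ A, ∀ b ∈ N, g * b * g⁻¹ ∈ N)
    (hNne : N ≠ ⊥) (hNmin : ∀ M : Subgroup (Perm X), (M ≤ A ∧ M ≠ ⊥ ∧ ∀ g ∈ A, ∀ b ∈ M, g * b * g⁻¹ ∈ M) →
      M ≤ N → M = N)
    (hab : ¬ ∀ x ∈ N, ∀ y ∈ N, x * y = y * x) (α : X) (htrN : ∀ x, ∃ h ∈ N, h α = x)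
    (l : ℕ) (h : SC ⊥ A l) : 3 * l + 4 ≤ 4 * n := by
  -- a minimal normal subgroup of `N`
  let Q : Subgroup (Perm X) → Prop := fun T => T ≤ N ∧ T ≠ ⊥ ∧ ∀ g ∈ N, ∀ b ∈ T, g * b * g⁻¹ ∈ T
  have hQN : Q N := ⟨le_rfl, hNne, fun g hg b hb => N.mul_mem (N.mul_mem hg hb) (N.inv_mem hg)⟩
  obtain ⟨T, hQT, hTmin⟩ := exists_min_subgroup Q hQN
  -- conjugates
  have hQconj : ∀ g ∈ A, ∀ R, Q R → Q (cj g R) := by
    rintro g hg R ⟨h1, h2, h3⟩
    refine ⟨?_, ?_, ?_⟩
    · intro b hb
      have h4 : g⁻¹ * b * g ∈ N := h1 hb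
      have h5 := hnorm g hg _ h4
      have e : g * (g⁻¹ * b * g) * g⁻¹ = b := by group
      rwa [e] at h5
    · exact fun h' => h2 (cj_eq_bot h')
    · intro x hx b hb
      rw [mem_cj]
      have h4 : g⁻¹ * x * g ∈ N := by
        have := hnorm g⁻¹ (A.inv_mem hg) x hx
        simpa using this
      have h5 := h3 _ h4 _ hb
      have e : g⁻¹ * (x * b * x⁻¹) * g = g⁻¹ * x * g * (g⁻¹ * b * g) * (g⁻¹ * x * g)⁻¹ := by group
      rw [e]
      exact h5
  let O : Finset (Subgroup (Perm X)) := (Set.toFinite {T' | ∃ g ∈ A, T' = cj g T}).toFinset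
  have hmemO : ∀ T', T' ∈ O ↔ ∃ g ∈ A, T' = cj g T := fun T' => by
    simp [O]
  have hQO : ∀ T' ∈ O, Q T' := by
    intro T' hT'
    obtain ⟨g, hg, rfl⟩ := (hmemO T').1 hT'
    exact hQconj g hg T hQT
  have hminO : ∀ T' ∈ O, ∀ R, Q R → R ≤ T' → R = T' := by
    intro T' hT' R hR hle
    obtain ⟨g, hg, rfl⟩ := (hmemO T').1 hT'
    have h1 := hTmin (cj g⁻¹ R) (hQconj g⁻¹ (A.inv_mem hg) R hR) (by
      have := cj_mono (g := g⁻¹) hle
      rwa [cj_inv_cj] at this)
    rw [← h1, cj_cj_inv]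
  have hcomm : ∀ T₁ ∈ O, ∀ T₂ ∈ O, T₁ ≠ T₂ → ∀ x ∈ T₁, ∀ y ∈ T₂, x * y = y * x := by
    intro T₁ hT₁ T₂ hT₂ hne x hx y hy
    have hI : T₁ ⊓ T₂ = ⊥ := by
      by_contra hI
      have hQI : Q (T₁ ⊓ T₂) := by
        refine ⟨inf_le_left.trans (hQO T₁ hT₁).1, hI, ?_⟩
        exact fun g hg b hb => ⟨(hQO T₁ hT₁).2.2 g hg b hb.1, (hQO T₂ hT₂).2.2 g hg b hb.2⟩
      have h1 := hminO T₁ hT₁ _ hQI inf_le_left
      have h2 := hminO T₂ hT₂ _ hQI inf_le_right
      exact hne (h1.symm.trans h2)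
    have hmem : x * y * x⁻¹ * y⁻¹ ∈ T₁ ⊓ T₂ := by
      constructor
      · have h1 := (hQO T₁ hT₁).2.2 y ((hQO T₂ hT₂).1 hy) x⁻¹ (T₁.inv_mem hx)
        have e : x * y * x⁻¹ * y⁻¹ = x * (y * x⁻¹ * y⁻¹) := by group
        rw [e]
        exact T₁.mul_mem hx h1
      · have h1 := (hQO T₂ hT₂).2.2 x ((hQO T₁ hT₁).1 hx) y hy
        exact T₂.mul_mem h1 (T₂.inv_mem hy)
    rw [hI, Subgroup.mem_bot] at hmem
    have h2 : x * y * x⁻¹ = y := by
      rw [mul_inv_eq_one] at hmem
      exact hmem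
    rw [mul_inv_eq_iff_eq_mul] at h2
    exact h2
  have hTO : T ∈ O := (hmemO T).2 ⟨1, A.one_mem, (cj_one T).symm⟩
  -- the family generates `N`
  have hNN : NN O = N := by
    refine hNmin _ ⟨?_, ?_, ?_⟩ ?_
    · exact NN_le (fun T' hT' => (hQO T' hT').1.trans hNA)
    · intro he
      apply hQT.2.1
      rw [eq_bot_iff, ← he]
      exact le_NN hTO
    · intro g hg x hx
      have hle : NN O ≤ (NN O).comap (MulAut.conj g).toMonoidHom := by
        refine NN_le (fun T' hT' t ht => ?_)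
        show (MulAut.conj g) t ∈ NN O
        rw [MulAut.conj_apply]
        obtain ⟨k, hk, rfl⟩ := (hmemO T').1 hT'
        have h1 : cj g (cj k T) ∈ O := (hmemO _).2 ⟨g * k, A.mul_mem hg hk, (cj_mul _ _ _).symm⟩
        exact le_NN h1 (conj_mem_cj ht)
      have := hle hx
      simpa [MulAut.conj_apply] using this
    · exact NN_le (fun T' hT' => (hQO T' hT').1)
  -- nonabelian
  have hTnonab : ∃ x ∈ T, ∃ y ∈ T, x * y ≠ y * x := by
    by_contra hcon
    push Not at hcon
    apply hab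
    have hall : ∀ T₁ ∈ O, ∀ T₂ ∈ O, ∀ x ∈ T₁, ∀ y ∈ T₂, x * y = y * x := by
      intro T₁ hT₁ T₂ hT₂ x hx y hy
      by_cases hne : T₁ = T₂
      · subst hne
        obtain ⟨g, hg, rfl⟩ := (hmemO T₁).1 hT₁
        have h1 := hcon _ hx _ hy
        have h2 : g * ((g⁻¹ * x * g) * (g⁻¹ * y * g)) * g⁻¹ =
            g * ((g⁻¹ * y * g) * (g⁻¹ * x * g)) * g⁻¹ := by rw [h1]
        have e1 : g * ((g⁻¹ * x * g) * (g⁻¹ * y * g)) * g⁻¹ = x * y := by group
        have e2 : g * ((g⁻¹ * y * g) * (g⁻¹ * x * g)) * g⁻¹ = y * x := by group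
        rwa [e1, e2] at h2
      · exact hcomm T₁ hT₁ T₂ hT₂ hne x hx y hy
    rw [← hNN]
    have hcen : ∀ T₁ ∈ O, T₁ ≤ Subgroup.centralizer (NN O : Set (Perm X)) := by
      intro T₁ hT₁ x hx
      have hle : NN O ≤ Subgroup.centralizer (T₁ : Set (Perm X)) := NN_le fun T₂ hT₂ y hy =>
        Subgroup.mem_centralizer_iff.mpr fun w hw => hall T₁ hT₁ T₂ hT₂ w hw y hy
      exact Subgroup.mem_centralizer_iff.mpr fun w hw =>
        (Subgroup.mem_centralizer_iff.mp (hle hw) x hx).symm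
    have hcen2 : NN O ≤ Subgroup.centralizer (NN O : Set (Perm X)) := NN_le hcen
    intro x hx y hy
    exact (Subgroup.mem_centralizer_iff.mp (hcen2 hx) y hy).symm
  have hfam : Fam O := by
    refine ⟨?_, ?_, hcomm⟩
    · intro T' hT'
      obtain ⟨g, hg, rfl⟩ := (hmemO T').1 hT'
      obtain ⟨x, hx, y, hy, hxy⟩ := hTnonab
      refine ⟨g * x * g⁻¹, conj_mem_cj hx, g * y * g⁻¹, conj_mem_cj hy, ?_⟩
      intro he
      apply hxy
      have e1 : g * x * g⁻¹ * (g * y * g⁻¹) = g * (x * y) * g⁻¹ := by group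
      have e2 : g * y * g⁻¹ * (g * x * g⁻¹) = g * (y * x) * g⁻¹ := by group
      rw [e1, e2] at he
      simpa using he
    · intro T' hT' B hB hNI
      by_cases hB0 : B = ⊥
      · exact Or.inl hB0
      · right
        refine hminO T' hT' B ⟨hB.trans (hQO T' hT').1, hB0, ?_⟩ hB
        have hnz : N ≤ Subgroup.normalizer (B : Set (Perm X)) := by
          rw [← hNN]
          refine NN_le (fun T'' hT'' => ?_)
          refine Subgroup.le_normalizer_iff.mpr ?_
          intro z hz b hb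
          by_cases he : T'' = T'
          · subst he
            exact hNI z hz b hb
          · rw [hcomm T'' hT'' T' hT' he z hz b (hB hb)]
            simpa using hb
        exact Subgroup.le_normalizer_iff.mp hnz
  refine nonabelian_case IH A O hX hfam ?_ ?_ ?_ α ?_ ⟨T, hTO⟩ l h
  · intro g hg T' hT'
    obtain ⟨k, hk, rfl⟩ := (hmemO T').1 hT'
    exact (hmemO _).2 ⟨g * k, A.mul_mem hg hk, (cj_mul _ _ _).symm⟩
  · intro T₁ hT₁ T₂ hT₂
    obtain ⟨g₁, hg₁, rfl⟩ := (hmemO T₁).1 hT₁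
    obtain ⟨g₂, hg₂, rfl⟩ := (hmemO T₂).1 hT₂
    refine ⟨g₂ * g₁⁻¹, A.mul_mem hg₂ (A.inv_mem hg₁), ?_⟩
    rw [← cj_mul]
    simp
  · rw [hNN]
    exact hNA
  · rw [hNN]
    exact htrN

theorem claim_all : ∀ n, Claim n := by
  intro n
  induction n using Nat.strong_induction_on with
  | _ n IH =>
    intro X _ A Y _ f hX hf hA l h
    by_cases hY : 2 ≤ Nat.card Y
    · exact lemmaA IH X A Y f hX hf hA hY l h
    · have hY0 : Nat.card Y = 0 ∨ Nat.card Y = 1 := by omega
      rcases hY0 with hY0 | hY1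
      · have hempty : IsEmpty Y := by
          rw [Finite.card_eq_zero_iff] at hY0
          exact hY0
        have hXe : IsEmpty X := ⟨fun x => hempty.elim (f x)⟩
        have hl := length_zero_of_subsingleton A l h
        rw [hY0, hl]
        omega
      · rw [hY1]
        have hYne : Nonempty Y := by
          have : 0 < Nat.card Y := by omega
          exact (Nat.card_pos_iff.mp this).1
        obtain ⟨α, _⟩ := hf hYne.some
        have hn1 : 1 ≤ n := by
          rw [← hX]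
          exact Nat.card_pos_iff.mpr ⟨⟨α⟩, inferInstance⟩
        by_cases hn : n = 1
        · have hXs : Subsingleton X := by
            rw [← Finite.card_le_one_iff_subsingleton]
            omega
          have hl := length_zero_of_subsingleton A l h
          rw [hl]
          omega
        · by_cases hprim : ∀ (B : Type) [Finite B] (e : X → B), Function.Surjective e →
              (∀ g ∈ A, ∀ x y, e x = e y → e (g x) = e (g y)) →
              Nat.card B ≤ 1 ∨ Nat.card X ≤ Nat.card B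
          · by_cases hA0 : A = ⊥
            · subst hA0
              rw [h.eq_zero_of_self]
              omega
            · let P : Subgroup (Perm X) → Prop :=
                fun M => M ≤ A ∧ M ≠ ⊥ ∧ ∀ g ∈ A, ∀ b ∈ M, g * b * g⁻¹ ∈ M
              have hPA : P A := ⟨le_rfl, hA0, fun g hg b hb =>
                A.mul_mem (A.mul_mem hg hb) (A.inv_mem hg)⟩
              obtain ⟨N, hPN, hNmin⟩ := exists_min_subgroup P hPA
              have htrN := transitive_of_normal A N hPN.2.2 hPN.2.1 hprim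
              by_cases hab : ∀ x ∈ N, ∀ y ∈ N, x * y = y * x
              · have := abelian_case A N hPN.1 hPN.2.2 hab htrN (by omega) l h
                omega
              · have := primitive_nonabelian IH A N hX hPN.1 hPN.2.2 hPN.2.1 hNmin hab α
                  (htrN α) l h
                omega
          · push Not at hprim
            obtain ⟨B, _, e, he, hc, hB1, hB2⟩ := hprim
            have := block_case IH X A B e hX he hc hB1 (by omega) l h
            omega

end Cfsg.Agent.Lib.CompLenMain
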