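import Cfsg.Agent.Lib.CompLenFam

/-!
# Composition length of permutation groups: a transitive product of nonabelian simple groups
-/

set_option autoImplicit false
set_option linter.unusedSectionVars false
set_option linter.unusedVariables false

noncomputable section

namespace Cfsg.Agent.Lib.CompLenNA

open Equiv Cfsg.Agent.Lib.SubnChain Cfsg.Agent.Lib.CompLenBase Cfsg.Agent.Lib.CompLenFam
open scoped Classical

variable {X : Type}

/-- Orbit of `α` under the subgroup generated by `I`. -/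
def Om (α : X) (I : Finset (Subgroup (Perm X))) : Set X := {x | ∃ h ∈ NN I, h α = x}

/-- The support of a point with respect to the family `J`. -/
def supp (α : X) (J : Finset (Subgroup (Perm X))) (x : X) : Finset (Subgroup (Perm X)) :=
  J.filter (fun T => x ∉ Om α (J.erase T))

theorem mem_supp {α : X} {J : Finset (Subgroup (Perm X))} {x : X} {T : Subgroup (Perm X)} :
    T ∈ supp α J x ↔ T ∈ J ∧ x ∉ Om α (J.erase T) := by
  simp [supp]

theorem self_mem_Om (α : X) (I : Finset (Subgroup (Perm X))) : α ∈ Om α I :=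
  ⟨1, Subgroup.one_mem _, rfl⟩

theorem mem_erase_NN {J : Finset (Subgroup (Perm X))} {T T' : Subgroup (Perm X)} (hT : T ∈ J)
    (hne : T ≠ T') : T ≤ NN (J.erase T') :=
  le_NN (Finset.mem_erase.mpr ⟨hne, hT⟩)

variable {O J : Finset (Subgroup (Perm X))} {α : X}

theorem NN_erase_sup {T : Subgroup (Perm X)} (hT : T ∈ J) : NN J = T ⊔ NN (J.erase T) := by
  rw [← NN_insert, Finset.insert_erase hT]

/-- Minimality of `J` gives elements of `T` moving `α` out of the orbit of the rest of `J`. -/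
theorem exists_out (hO : Fam O) (hJO : J ⊆ O) {T : Subgroup (Perm X)} (hT : T ∈ J)
    (htrans : ∀ x, ∃ h ∈ NN J, h α = x)
    (hmin : ¬ ∀ x, ∃ h ∈ NN (J.erase T), h α = x) :
    ∃ t ∈ T, t α ∉ Om α (J.erase T) := by
  by_contra hcon
  push Not at hcon
  apply hmin
  intro x
  obtain ⟨h, hh, rfl⟩ := htrans x
  rw [NN_erase_sup hT, sup_comm] at hh
  have hTO : T ∈ O := hJO hT
  have hsubs : J.erase T ⊆ O := (Finset.erase_subset _ _).trans hJO
  have hnT : T ∉ J.erase T := Finset.notMem_erase _ _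
  have hcomm : ∀ b ∈ NN (J.erase T), ∀ n ∈ T, b * n * b⁻¹ ∈ T := by
    intro b hb n hn
    rw [← hO.comm_NN hTO hsubs hnT n hn b hb]
    simpa using hn
  obtain ⟨m, hm, t, ht, rfl⟩ := mem_sup_of_normalized hcomm h hh
  obtain ⟨m', hm', hm'e⟩ := hcon t ht
  refine ⟨m * m', Subgroup.mul_mem _ hm hm', ?_⟩
  show m (m' α) = m (t α)
  rw [hm'e]

/-- Points with a prescribed support exist. -/
theorem supp_exists (hO : Fam O) (hJO : J ⊆ O)
    (hout : ∀ T ∈ J, ∃ t ∈ T, t α ∉ Om α (J.erase T)) :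
    ∀ S : Finset (Subgroup (Perm X)), S ⊆ J → ∃ h ∈ NN S, supp α J (h α) = S := by
  intro S
  induction S using Finset.induction_on with
  | empty =>
    intro _
    refine ⟨1, Subgroup.one_mem _, ?_⟩
    ext T
    simp only [mem_supp, Finset.notMem_empty, iff_false, not_and, not_not]
    exact fun _ => self_mem_Om _ _
  | insert T S hTS ih =>
    intro hsub
    have hTJ : T ∈ J := hsub (Finset.mem_insert_self _ _)
    have hSJ : S ⊆ J := fun x hx => hsub (Finset.mem_insert_of_mem hx)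
    obtain ⟨h, hh, hsupp⟩ := ih hSJ
    obtain ⟨t, ht, htout⟩ := hout T hTJ
    have hSsub : S ⊆ J.erase T := fun x hx =>
      Finset.mem_erase.mpr ⟨fun e => hTS (e ▸ hx), hSJ hx⟩
    have hhle : NN S ≤ NN (J.erase T) := NN_mono hSsub
    have hsubs : J.erase T ⊆ O := (Finset.erase_subset _ _).trans hJO
    have hnT : T ∉ J.erase T := Finset.notMem_erase _ _
    refine ⟨t * h, ?_, ?_⟩
    · rw [NN_insert]
      exact Subgroup.mul_mem_sup ht hh
    · ext T'
      rw [mem_supp]
      constructor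
      · rintro ⟨hT'J, hT'⟩
        by_cases hT'T : T' = T
        · simp [hT'T]
        · rw [Finset.mem_insert]
          right
          by_contra hT'S
          apply hT'
          have hle2 : NN S ≤ NN (J.erase T') := NN_mono (fun x hx =>
            Finset.mem_erase.mpr ⟨fun e => hT'S (e ▸ hx), hSJ hx⟩)
          refine ⟨t * h, Subgroup.mul_mem _ (mem_erase_NN hTJ (Ne.symm hT'T) ht) (hle2 hh), rfl⟩
      · intro hT'
        rw [Finset.mem_insert] at hT'
        rcases hT' with rfl | hT'S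
        · refine ⟨hTJ, ?_⟩
          rintro ⟨m, hm, hme⟩
          apply htout
          refine ⟨h⁻¹ * m, Subgroup.mul_mem _ (Subgroup.inv_mem _ (hhle hh)) hm, ?_⟩
          show h⁻¹ (m α) = t α
          rw [hme]
          have hcm : t * h = h * t := hO.comm_NN (hJO hTJ) hsubs hnT t ht h (hhle hh)
          rw [hcm]
          simp
        · have hT'J : T' ∈ J := hSJ hT'S
          refine ⟨hT'J, ?_⟩
          rintro ⟨m, hm, hme⟩
          have h1 := (mem_supp.mp (hsupp ▸ hT'S : T' ∈ supp α J (h α))).2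
          apply h1
          have hTne : T ≠ T' := fun e => hTS (e ▸ hT'S)
          refine ⟨t⁻¹ * m, Subgroup.mul_mem _ (Subgroup.inv_mem _ (mem_erase_NN hTJ hTne ht)) hm, ?_⟩
          show t⁻¹ (m α) = h α
          rw [hme]
          show t⁻¹ (t (h α)) = h α
          simp

theorem supp_single {T : Subgroup (Perm X)} (hT : T ∈ J) {t : Perm X} (ht : t ∈ T)
    (hout : t α ∉ Om α (J.erase T)) : supp α J (t α) = {T} := by
  ext T'
  rw [mem_supp, Finset.mem_singleton]
  constructor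
  · rintro ⟨hT', h1⟩
    by_contra hne
    exact h1 ⟨t, mem_erase_NN hT (Ne.symm hne) ht, rfl⟩
  · rintro rfl
    exact ⟨hT, hout⟩

theorem supp_sub_single {T : Subgroup (Perm X)} (hT : T ∈ J) {t : Perm X} (ht : t ∈ T) :
    supp α J (t α) ⊆ {T} := by
  intro T' hT'
  rw [mem_supp] at hT'
  rw [Finset.mem_singleton]
  by_contra hne
  exact hT'.2 ⟨t, mem_erase_NN hT (Ne.symm hne) ht, rfl⟩

/-- Conjugation-invariance of the orbits. -/
theorem Om_inv {g : Perm X} {I : Finset (Subgroup (Perm X))} (hg : g α = α)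
    (hnorm : ∀ T ∈ I, ∀ t ∈ T, g * t * g⁻¹ ∈ T) {x : X} (hx : x ∈ Om α I) : g x ∈ Om α I := by
  obtain ⟨h, hh, rfl⟩ := hx
  refine ⟨g * h * g⁻¹, NN_conj hnorm h hh, ?_⟩
  have : g⁻¹ α = α := by
    conv_lhs => rw [← hg]
    simp
  show g (h (g⁻¹ α)) = g (h α)
  rw [this]

/-- The elements we consider: fixing `α` and normalising the members of `O`. -/
def KP (α : X) (O : Finset (Subgroup (Perm X))) (g : Perm X) : Prop :=
  g α = α ∧ ∀ T ∈ O, ∀ t ∈ T, g * t * g⁻¹ ∈ T

theorem supp_inv (hJO : J ⊆ O) {g : Perm X} (hg : KP α O g) (hg' : KP α O g⁻¹) (x : X) :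
    supp α J (g x) = supp α J x := by
  have hsub : ∀ T, J.erase T ⊆ O := fun T => (Finset.erase_subset _ _).trans hJO
  ext T
  simp only [mem_supp]
  refine and_congr_right (fun _ => not_congr ⟨fun h => ?_, fun h => ?_⟩)
  · have := Om_inv hg'.1 (fun T' hT' t ht => hg'.2 T' (hsub T hT') t ht) h
    simpa using this
  · exact Om_inv hg.1 (fun T' hT' t ht => hg.2 T' (hsub T hT') t ht) h

/-- The extra bit. -/
def Pb (α : X) (J' : Finset (Subgroup (Perm X))) (m : Subgroup (Perm X) → ℕ) (x : X) : Prop :=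
  ∃ T ∈ J', ∃ t ∈ T, orderOf t = m T ∧ t α = x

/-- The invariant. -/
def sig (α : X) (J J' : Finset (Subgroup (Perm X))) (m : Subgroup (Perm X) → ℕ) (x : X) :
    Finset (Subgroup (Perm X)) × Bool :=
  (supp α J x, decide (Pb α J' m x))

theorem Pb_inv {J' : Finset (Subgroup (Perm X))} {m : Subgroup (Perm X) → ℕ} (hJ' : J' ⊆ O)
    {g : Perm X} (hg : KP α O g) {x : X} (hx : Pb α J' m x) : Pb α J' m (g x) := by
  obtain ⟨T, hT, t, ht, hord, rfl⟩ := hx
  refine ⟨T, hT, g * t * g⁻¹, hg.2 T (hJ' hT) t ht, ?_, ?_⟩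
  · rw [conj_orderOf]
    exact hord
  · have : g⁻¹ α = α := by
      conv_lhs => rw [← hg.1]
      simp
    show g (t (g⁻¹ α)) = g (t α)
    rw [this]

theorem sig_inv {J' : Finset (Subgroup (Perm X))} {m : Subgroup (Perm X) → ℕ} (hJO : J ⊆ O)
    (hJ' : J' ⊆ O) {g : Perm X} (hg : KP α O g) (hg' : KP α O g⁻¹) (x : X) :
    sig α J J' m (g x) = sig α J J' m x := by
  unfold sig
  rw [supp_inv hJO hg hg' x]
  congr 1
  apply decide_eq_decide.mpr
  refine ⟨fun h => ?_, fun h => Pb_inv hJ' hg h⟩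
  have := Pb_inv hJ' hg' h
  simpa using this

/-- Counting the values of the invariant. -/
theorem count_range {W Z : Type} [Finite W] (s : W → Finset Z × Bool) (J J' : Finset Z)
    (h1 : ∀ S, S ⊆ J → S.Nonempty → ∃ x, s x = (S, false))
    (h2 : ∀ T ∈ J', ∃ x, s x = ({T}, true)) :
    2 ^ J.card - 1 + J'.card ≤ Nat.card (Set.range s) := by
  let T₁ : Finset (Finset Z × Bool) := (J.powerset.erase ∅).image (fun S => (S, false))
  let T₂ : Finset (Finset Z × Bool) := J'.image (fun T => (({T} : Finset Z), true))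
  have hT₁ : T₁.card = 2 ^ J.card - 1 := by
    rw [Finset.card_image_of_injective _ (fun a b h => (Prod.ext_iff.mp h).1), Finset.card_erase_of_mem
      (Finset.empty_mem_powerset J), Finset.card_powerset]
  have hT₂ : T₂.card = J'.card := by
    refine Finset.card_image_of_injective _ (fun a b h => ?_)
    have := (Prod.ext_iff.mp h).1
    simpa using this
  have hdisj : Disjoint T₁ T₂ := by
    rw [Finset.disjoint_left]
    intro p hp1 hp2
    obtain ⟨_, _, rfl⟩ := Finset.mem_image.mp hp1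
    obtain ⟨_, _, h⟩ := Finset.mem_image.mp hp2
    simpa using (Prod.ext_iff.mp h).2
  have hsub : ((T₁ ∪ T₂ : Finset _) : Set (Finset Z × Bool)) ⊆ Set.range s := by
    intro p hp
    rw [Finset.mem_coe, Finset.mem_union] at hp
    rcases hp with hp | hp
    · obtain ⟨S, hS, rfl⟩ := Finset.mem_image.mp hp
      obtain ⟨hS1, hS2⟩ := Finset.mem_erase.mp hS
      exact h1 S (Finset.mem_powerset.mp hS2) (Finset.nonempty_iff_ne_empty.mpr hS1)
    · obtain ⟨T, hT, rfl⟩ := Finset.mem_image.mp hp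
      exact h2 T hT
  have h3 := Set.ncard_le_ncard hsub (Set.toFinite _)
  rw [Set.ncard_coe_finset, Finset.card_union_of_disjoint hdisj, hT₁, hT₂] at h3
  rw [Nat.card_coe_set_eq]
  exact h3

theorem seven_le (j : ℕ) : 7 * j ≤ 4 * 2 ^ j := by
  induction j with
  | zero => simp
  | succ j ih =>
    rcases Nat.eq_zero_or_pos j with rfl | hj
    · norm_num
    · have : 2 ≤ 2 ^ j := by
        calc 2 = 2 ^ 1 := by norm_num
          _ ≤ 2 ^ j := Nat.pow_le_pow_right (by norm_num) hj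
      rw [pow_succ]
      omega

/-- The semiregularity of every member of the family when `J` is not everything. -/
theorem semireg (hO : Fam O) (hJO : J ⊆ O) (htrans : ∀ x, ∃ h ∈ NN J, h α = x)
    {T' : Subgroup (Perm X)} (hT' : T' ∈ O) (hT'J : T' ∉ J) (t : Perm X) (ht : t ∈ T') (x : X)
    (hx : t x = x) : t = 1 := by
  have hc : ∀ h ∈ NN J, t * h = h * t := fun h hh => hO.comm_NN hT' hJO hT'J t ht h hh
  obtain ⟨h, hh, rfl⟩ := htrans x
  have h1 : t α = α := by
    have h2 : (h⁻¹ * (t * h)) α = α := by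
      show h⁻¹ (t (h α)) = α
      rw [hx]
      simp
    rw [hc h hh] at h2
    simpa using h2
  ext y
  obtain ⟨k, hk, rfl⟩ := htrans y
  show (t * k) α = k α
  rw [hc k hk]
  show k (t α) = k α
  rw [h1]

theorem semireg_conj {A : Subgroup (Perm X)} {T T' : Subgroup (Perm X)} {g : Perm X} (he : cj g T' = T)
    (hT' : ∀ t ∈ T', ∀ x, t x = x → t = 1) : ∀ t ∈ T, ∀ x, t x = x → t = 1 := by
  subst he
  intro t ht x hx
  have h1 : g⁻¹ * t * g = 1 := hT' _ ht (g⁻¹ x) (by
    show g⁻¹ (t (g (g⁻¹ x))) = g⁻¹ x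
    simp [hx])
  have : t = g * (g⁻¹ * t * g) * g⁻¹ := by group
  rw [this, h1]
  simp

/-- The subgroup of elements of `T` moving `α` inside the orbit of `R`. -/
def subD (T R : Subgroup (Perm X)) (hcomm : ∀ t ∈ T, ∀ h ∈ R, t * h = h * t) (α : X) :
    Subgroup (Perm X) where
  carrier := {t | t ∈ T ∧ ∃ h ∈ R, h α = t α}
  mul_mem' := by
    rintro a b ⟨ha, h₁, hh₁, ea⟩ ⟨hb, h₂, hh₂, eb⟩
    refine ⟨T.mul_mem ha hb, h₂ * h₁, R.mul_mem hh₂ hh₁, ?_⟩
    show h₂ (h₁ α) = a (b α)
    rw [ea, ← eb]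
    show (h₂ * a) α = (a * h₂) α
    rw [hcomm a ha h₂ hh₂]
  one_mem' := ⟨T.one_mem, 1, R.one_mem, rfl⟩
  inv_mem' := by
    rintro a ⟨ha, h, hh, e⟩
    refine ⟨T.inv_mem ha, h⁻¹, R.inv_mem hh, ?_⟩
    have h1 : (a * h⁻¹) α = α := by
      rw [hcomm a ha _ (R.inv_mem hh)]
      show h⁻¹ (a α) = α
      rw [← e]
      simp
    have h2 : a (h⁻¹ α) = α := h1
    exact Equiv.Perm.eq_inv_iff_eq.mpr h2

theorem supp_self (α : X) (J : Finset (Subgroup (Perm X))) : supp α J α = ∅ := by
  ext T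
  simp only [mem_supp, Finset.notMem_empty, iff_false, not_and, not_not]
  exact fun _ => self_mem_Om _ _

theorem exists_min_subset (P : Finset (Subgroup (Perm X)) → Prop) :
    ∀ O, P O → ∃ J ⊆ O, P J ∧ ∀ T ∈ J, ¬ P (J.erase T) := by
  intro O
  induction O using Finset.strongInduction with
  | H O ih =>
    intro hP
    by_cases h : ∃ T ∈ O, P (O.erase T)
    · obtain ⟨T, hT, hPT⟩ := h
      obtain ⟨J, hJ, h1, h2⟩ := ih _ (Finset.erase_ssubset hT) hPT
      exact ⟨J, hJ.trans (Finset.erase_subset _ _), h1, h2⟩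
    · push Not at h
      exact ⟨O, subset_rfl, hP, h⟩

variable [Finite X]

/-- The bit in the case where `J` is everything. -/
theorem bit_eq (hO : Fam O) (hJO : J ⊆ O) (hout : ∀ T ∈ J, ∃ t ∈ T, t α ∉ Om α (J.erase T)) :
    ∃ (J' : Finset (Subgroup (Perm X))) (m : Subgroup (Perm X) → ℕ), J' ⊆ O ∧ J'.card = 0 ∧
      (∀ S, S ⊆ J → S.Nonempty → ∃ x, supp α J x = S ∧ ¬ Pb α J' m x) ∧
      (∀ T ∈ J', ∃ x, supp α J x = {T} ∧ Pb α J' m x) := by
  refine ⟨∅, fun _ => 0, by simp, by simp, ?_, by simp⟩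
  intro S hS _
  obtain ⟨h, _, hh⟩ := supp_exists hO hJO hout S hS
  refine ⟨h α, hh, ?_⟩
  rintro ⟨T, hT, _⟩
  simp at hT

/-- The bit in the semiregular case. -/
theorem bit_lt (hO : Fam O) (hJO : J ⊆ O) (hout : ∀ T ∈ J, ∃ t ∈ T, t α ∉ Om α (J.erase T))
    (hsemi : ∀ T ∈ O, ∀ t ∈ T, ∀ x, t x = x → t = 1) :
    ∃ (J' : Finset (Subgroup (Perm X))) (m : Subgroup (Perm X) → ℕ), J' ⊆ O ∧ J'.card = J.card ∧
      (∀ S, S ⊆ J → S.Nonempty → ∃ x, supp α J x = S ∧ ¬ Pb α J' m x) ∧
      (∀ T ∈ J', ∃ x, supp α J x = {T} ∧ Pb α J' m x) := by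
  have hpair : ∀ T, ∃ M : ℕ, T ∈ J → ∃ t₁ ∈ T, ∃ t₂ ∈ T, t₁ α ∉ Om α (J.erase T) ∧
      t₂ α ∉ Om α (J.erase T) ∧ orderOf t₁ = M ∧ orderOf t₂ ≠ M := by
    intro T
    by_cases hT : T ∈ J
    · have hsubs : J.erase T ⊆ O := (Finset.erase_subset _ _).trans hJO
      have hnT : T ∉ J.erase T := Finset.notMem_erase _ _
      let D := subD T (NN (J.erase T)) (hO.comm_NN (hJO hT) hsubs hnT) α
      have hDT : D ≤ T := fun t ht => ht.1
      obtain ⟨t₀, ht₀, ht₀o⟩ := hout T hT
      have hnot : ∀ t ∈ T, t ∉ D → t α ∉ Om α (J.erase T) := by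
        rintro t ht htD ⟨h, hh, he⟩
        exact htD ⟨ht, h, hh, he⟩
      have hDne : D ≠ T := by
        intro he
        have : t₀ ∈ D := he ▸ ht₀
        obtain ⟨_, h, hh, he'⟩ := this
        exact ht₀o ⟨h, hh, he'⟩
      obtain ⟨t₁, h1, t₂, h2, h3, h4, h5⟩ := hO.exists_orders (hJO hT) D hDT hDne
      exact ⟨orderOf t₁, fun _ => ⟨t₁, h1, t₂, h2, hnot _ h1 h3, hnot _ h2 h4, rfl, fun e => h5 e.symm⟩⟩
    · exact ⟨0, fun h => absurd h hT⟩
  choose m hm using hpair
  refine ⟨J, m, hJO, rfl, ?_, ?_⟩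
  · intro S hS hSne
    by_cases hsing : ∃ T, S = {T}
    · obtain ⟨T, rfl⟩ := hsing
      have hT : T ∈ J := hS (Finset.mem_singleton_self T)
      obtain ⟨t₁, h1, t₂, h2, h3, h4, h5, h6⟩ := hm T hT
      refine ⟨t₂ α, supp_single hT h2 h4, ?_⟩
      rintro ⟨T', hT', t', ht', ho, he⟩
      have h7 := supp_single hT h2 h4
      have h8 : T = T' := by
        have h9 := supp_sub_single (α := α) hT' ht'
        rw [he, h7] at h9
        exact Finset.mem_singleton.mp (h9 (Finset.mem_singleton_self T))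
      subst h8
      have h10 : t'⁻¹ * t₂ = 1 := hsemi T (hJO hT) _ (T.mul_mem (T.inv_mem ht') h2) α (by
        show t'⁻¹ (t₂ α) = α
        rw [← he]
        simp)
      have h11 : t' = t₂ := inv_mul_eq_one.mp h10
      subst h11
      exact h6 ho
    · obtain ⟨h, _, hh⟩ := supp_exists hO hJO hout S hS
      refine ⟨h α, hh, ?_⟩
      rintro ⟨T', hT', t', ht', _, he⟩
      have h9 := supp_sub_single (α := α) hT' ht'
      rw [he, hh] at h9
      apply hsing
      refine ⟨T', Finset.Subset.antisymm h9 ?_⟩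
      obtain ⟨z, hz⟩ := hSne
      have : z = T' := Finset.mem_singleton.mp (h9 hz)
      intro w hw
      rw [Finset.mem_singleton] at hw
      rw [hw, ← this]
      exact hz
  · intro T hT
    obtain ⟨t₁, h1, t₂, h2, h3, h4, h5, h6⟩ := hm T hT
    exact ⟨t₁ α, supp_single hT h1 h3, T, hT, t₁, h1, h5, rfl⟩

theorem two_pow_le_card (hO : Fam O) (hJO : J ⊆ O)
    (hout : ∀ T ∈ J, ∃ t ∈ T, t α ∉ Om α (J.erase T)) : 2 ^ J.card ≤ Nat.card X := by
  haveI := Fintype.ofFinite X
  have h1 := Finset.card_le_card_of_surjOn (s := Finset.univ) (t := J.powerset) (supp α J)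
    (by
      intro S hS
      obtain ⟨h, _, hh⟩ := supp_exists hO hJO hout S (Finset.mem_powerset.mp hS)
      exact ⟨h α, by simp, hh⟩)
  rw [Finset.card_powerset, Finset.card_univ] at h1
  rwa [Nat.card_eq_fintype_card]

/-- A subgroup commuting with a transitive subgroup is semiregular. -/
theorem semireg_of_comm {R N : Subgroup (Perm X)} (hN : ∀ x, ∃ h ∈ N, h α = x)
    (hc : ∀ t ∈ R, ∀ h ∈ N, t * h = h * t) (t : Perm X) (ht : t ∈ R) (hx : t α = α) : t = 1 := by
  ext y
  obtain ⟨k, hk, rfl⟩ := hN y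
  show (t * k) α = k α
  rw [hc t ht k hk]
  show k (t α) = k α
  rw [hx]

theorem card_le_of_semireg (R : Subgroup (Perm X)) (hR : ∀ t ∈ R, t α = α → t = 1) :
    Nat.card R ≤ Nat.card X := by
  refine Nat.card_le_card_of_injective (fun t : ↥R => t.1 α) ?_
  intro t₁ t₂ he
  have h1 : t₂.1⁻¹ * t₁.1 = 1 := hR _ (R.mul_mem (R.inv_mem t₂.2) t₁.2) (by
    have he' : t₁.1 α = t₂.1 α := he
    show t₂.1⁻¹ (t₁.1 α) = α
    rw [he']
    simp)
  exact Subtype.ext (inv_mul_eq_one.mp h1).symm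

/-- The numerical bound on the number of factors. -/
theorem card_bound (hO : Fam O) (hJO : J ⊆ O) (htrans : ∀ x, ∃ h ∈ NN J, h α = x) (c : ℕ)
    (hc : ∀ T ∈ O, Nat.card T = c) (hc2 : 2 ≤ c) : O.card ≤ 2 * J.card := by
  have hcard := hO.card_NN c hc
  have h1 : Nat.card X ≤ c ^ J.card := by
    rw [← hcard J hJO]
    refine Nat.card_le_card_of_surjective (fun h : ↥(NN J) => h.1 α) ?_
    intro x
    obtain ⟨h, hh, he⟩ := htrans x
    exact ⟨⟨h, hh⟩, he⟩
  have hsub : O \ J ⊆ O := Finset.sdiff_subset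
  have h2 : c ^ (O \ J).card ≤ Nat.card X := by
    rw [← hcard _ hsub]
    refine card_le_of_semireg (α := α) _ (semireg_of_comm htrans ?_)
    intro t ht h hh
    have hle : NN (O \ J) ≤ Subgroup.centralizer (NN J : Set (Perm X)) := by
      refine NN_le (fun T' hT' z hz => ?_)
      rw [Finset.mem_sdiff] at hT'
      exact Subgroup.mem_centralizer_iff.mpr fun w hw =>
        (hO.comm_NN hT'.1 hJO hT'.2 z hz w hw).symm
    exact (Subgroup.mem_centralizer_iff.mp (hle ht) h hh).symm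
  have h3 : (O \ J).card ≤ J.card :=
    (Nat.pow_le_pow_iff_right (by omega)).mp (h2.trans h1)
  have h4 : (O \ J).card = O.card - J.card := Finset.card_sdiff_of_subset hJO
  have h5 : J.card ≤ O.card := Finset.card_le_card hJO
  omega

theorem two_mul_lt (j : ℕ) (hj : 3 ≤ j) : 2 * j < 2 ^ j := by
  induction j, hj using Nat.le_induction with
  | base => norm_num
  | succ j hj ih =>
    rw [pow_succ]
    omega

/-- Conjugation on a stable family. -/
def conjHom (B : Subgroup (Perm X)) (O : Finset (Subgroup (Perm X)))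
    (hs : ∀ g ∈ B, ∀ T ∈ O, cj g T ∈ O) : ↥B →* Perm ↥O :=
  MonoidHom.toHomPerm
    { toFun := fun g => (fun T : ↥O => (⟨cj g.1 T.1, hs g.1 g.2 T.1 T.2⟩ : ↥O) : ↥O → ↥O)
      map_one' := funext fun T => Subtype.ext (cj_one _)
      map_mul' := fun g h => funext fun T => Subtype.ext (cj_mul _ _ _) }

theorem conjHom_apply (B : Subgroup (Perm X)) (O : Finset (Subgroup (Perm X)))
    (hs : ∀ g ∈ B, ∀ T ∈ O, cj g T ∈ O) (g : ↥B) (T : ↥O) :
    ((conjHom B O hs g T : ↥O) : Subgroup (Perm X)) = cj g.1 T.1 := rfl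

/-- The nonabelian case. -/
theorem nonabelian_case {n : ℕ} (IH : ∀ m < n, Claim m) (A : Subgroup (Perm X))
    (O : Finset (Subgroup (Perm X))) (hX : Nat.card X = n) (hO : Fam O)
    (hstable : ∀ g ∈ A, ∀ T ∈ O, cj g T ∈ O) (htr : ∀ T₁ ∈ O, ∀ T₂ ∈ O, ∃ g ∈ A, cj g T₁ = T₂)
    (hNA : NN O ≤ A) (α : X) (htrans : ∀ x, ∃ h ∈ NN O, h α = x) (hne : O.Nonempty)
    (l : ℕ) (h : SC ⊥ A l) : 3 * l + 4 ≤ 4 * n := by
  -- the normal subgroup
  have hnorm : ∀ b ∈ A, ∀ x ∈ NN O, b * x * b⁻¹ ∈ NN O := by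
    intro b hb x hx
    have hle : NN O ≤ (NN O).comap (MulAut.conj b).toMonoidHom := by
      refine NN_le (fun T hT t ht => ?_)
      show (MulAut.conj b) t ∈ NN O
      rw [MulAut.conj_apply]
      exact le_NN (hstable b hb T hT) (conj_mem_cj ht)
    have := hle hx
    simpa [MulAut.conj_apply] using this
  obtain ⟨a, b, h1, h2, hl⟩ := h.split_bot hNA hnorm
  have ha : a ≤ O.card := hO.bound_NN O subset_rfl a h1
  -- the point stabiliser
  let S : Subgroup (Perm X) := MulAction.stabilizer (Perm X) α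
  have hS : ∀ g, g ∈ S ↔ g α = α := fun g => Iff.rfl
  have h3 := h2.inf_stab S (by
    intro c hc
    obtain ⟨k, hk, hkα⟩ := htrans (c α)
    refine ⟨k, hk, k⁻¹ * c, ?_, by simp⟩
    rw [hS]
    show k⁻¹ (c α) = α
    rw [← hkα]
    simp)
  -- the minimal transitive part
  obtain ⟨J, hJO, hJtr, hJmin⟩ := exists_min_subset (fun I => ∀ x, ∃ h ∈ NN I, h α = x) O htrans
  have hout : ∀ T ∈ J, ∃ t ∈ T, t α ∉ Om α (J.erase T) := fun T hT =>
    exists_out hO hJO hT hJtr (hJmin T hT)
  -- growth of the stabilisers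
  have hgrow : ∀ D : Finset (Subgroup (Perm X)), D ⊆ O → Disjoint D J →
      ∃ m, D.card ≤ m ∧ SC ⊥ (NN (J ∪ D) ⊓ S) m := by
    intro D
    induction D using Finset.induction_on with
    | empty =>
      intro _ _
      obtain ⟨m, hm⟩ := SC.exists_bot (NN (J ∪ ∅) ⊓ S)
      exact ⟨m, by simp, hm⟩
    | insert T D hTD ih =>
      intro hsub hdisj
      have hTO : T ∈ O := hsub (Finset.mem_insert_self _ _)
      have hDO : D ⊆ O := fun x hx => hsub (Finset.mem_insert_of_mem hx)
      have hdisj' : Disjoint D J := Finset.disjoint_of_subset_left (Finset.subset_insert _ _) hdisj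
      have hTJ : T ∉ J := Finset.disjoint_left.mp hdisj (Finset.mem_insert_self _ _)
      obtain ⟨m, hm1, hm2⟩ := ih hDO hdisj'
      have hIO : J ∪ D ⊆ O := Finset.union_subset hJO hDO
      have hTI : T ∉ J ∪ D := by
        rw [Finset.mem_union]
        rintro (h' | h')
        · exact hTJ h'
        · exact hTD h'
      have hins : J ∪ insert T D = insert T (J ∪ D) := Finset.union_insert _ _ _
      refine ⟨m + 1, ?_, ?_⟩
      · rw [Finset.card_insert_of_notMem hTD]
        omega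
      · rw [hins]
        refine SC.step hm2 (lt_of_le_of_ne ?_ ?_) ?_
        · exact inf_le_inf_right _ (NN_mono (Finset.subset_insert _ _))
        · intro he
          obtain ⟨x, hx, y, hy, hxy⟩ := hO.nonab T hTO
          have ht : ∃ t ∈ T, t ≠ 1 := by
            by_cases hx1 : x = 1
            · refine ⟨y, hy, ?_⟩
              rintro rfl
              simp at hxy
            · exact ⟨x, hx, hx1⟩
          obtain ⟨t, ht, ht1⟩ := ht
          obtain ⟨k, hk, hke⟩ := hJtr (t α)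
          have hk' : k ∈ NN (J ∪ D) := NN_mono Finset.subset_union_left hk
          have hs : k⁻¹ * t ∈ NN (insert T (J ∪ D)) ⊓ S := by
            refine ⟨Subgroup.mul_mem _ (Subgroup.inv_mem _ (NN_mono (Finset.subset_insert _ _) hk'))
              (le_NN (Finset.mem_insert_self _ _) ht), (hS _).mpr ?_⟩
            show k⁻¹ (t α) = α
            rw [← hke]
            simp
          rw [← he] at hs
          have h5 : t ∈ NN (J ∪ D) := by
            have := Subgroup.mul_mem _ hk' hs.1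
            simpa using this
          have h6 : t ∈ T ⊓ NN (J ∪ D) := ⟨ht, h5⟩
          rw [hO.inf_NN hTO hIO hTI, Subgroup.mem_bot] at h6
          exact ht1 h6
        · intro c hc z hz
          exact ⟨hO.normalizes_of_commuting hTO hIO hTI c hc.1 z hz.1,
            S.mul_mem (S.mul_mem hc.2 hz.2) (S.inv_mem hc.2)⟩
  obtain ⟨m, hm1, hm2⟩ := hgrow (O \ J) Finset.sdiff_subset Finset.sdiff_disjoint
  have hunion : J ∪ (O \ J) = O := Finset.union_sdiff_of_subset hJO
  rw [hunion] at hm2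
  have hmk : O.card - J.card ≤ m := by
    rw [← Finset.card_sdiff_of_subset hJO]
    exact hm1
  have h4 := hm2.trans h3
  -- action on the family
  have hsAS : ∀ g ∈ A ⊓ S, ∀ T ∈ O, cj g T ∈ O := fun g hg => hstable g hg.1
  let φ := conjHom (A ⊓ S) O hsAS
  obtain ⟨a', b', hl', ha', hb'⟩ := h4.hom_split φ
  let K : Subgroup (Perm X) := φ.ker.map (A ⊓ S).subtype
  have hKP : ∀ g ∈ K, KP α O g := by
    rintro _ ⟨g, hg, rfl⟩
    refine ⟨g.2.2, fun T hT t ht => ?_⟩
    have h5 : φ g = 1 := hg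
    have h6 := conjHom_apply (A ⊓ S) O hsAS g ⟨T, hT⟩
    have h7 : ((φ g ⟨T, hT⟩ : ↥O) : Subgroup (Perm X)) = cj g.1 T := h6
    rw [h5] at h7
    have h8 : T = cj g.1 T := h7
    rw [h8]
    exact conj_mem_cj ht
  -- the restriction to the remaining points
  have hp : ∀ g ∈ K, ∀ x, (g x ≠ α) ↔ x ≠ α := by
    intro g hg x
    have h5 := (hKP g hg).1
    refine not_congr ⟨fun h6 => g.injective (h6.trans h5.symm), ?_⟩
    rintro rfl
    exact h5
  let ψ := restrictHom K (fun x => x ≠ α) hp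
  have hψ : Function.Injective ψ := by
    rw [injective_iff_map_eq_one]
    intro g hg
    apply Subtype.ext
    ext x
    by_cases hx : x = α
    · subst hx
      exact (hKP g.1 g.2).1
    · have h5 := congrArg (fun σ : Perm {x // x ≠ α} => ((σ ⟨x, hx⟩ : {x // x ≠ α}) : X)) hg
      exact h5
  have ha'' := ha'.range_of_injective ψ hψ
  -- the bit
  obtain ⟨J', μ, hJ'O, hJ'card, hb1, hb2⟩ : ∃ (J' : Finset (Subgroup (Perm X)))
      (μ : Subgroup (Perm X) → ℕ), J' ⊆ O ∧ J'.card = (if J = O then 0 else J.card) ∧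
      (∀ S, S ⊆ J → S.Nonempty → ∃ x, supp α J x = S ∧ ¬ Pb α J' μ x) ∧
      (∀ T ∈ J', ∃ x, supp α J x = {T} ∧ Pb α J' μ x) := by
    by_cases hJeq : J = O
    · rw [if_pos hJeq]
      exact bit_eq hO hJO hout
    · rw [if_neg hJeq]
      have hex : ∃ T' ∈ O, T' ∉ J := by
        by_contra hcon
        push Not at hcon
        exact hJeq (Finset.Subset.antisymm hJO hcon)
      obtain ⟨T', hT', hT'J⟩ := hex
      refine bit_lt hO hJO hout ?_
      intro T hT t ht x hx
      obtain ⟨g, _, hg⟩ := htr T' hT' T hT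
      exact semireg_conj (A := A) hg (fun t' ht' y hy => semireg hO hJO hJtr hT' hT'J t' ht' y hy) t ht x hx
  let s : {x // x ≠ α} → Finset (Subgroup (Perm X)) × Bool := fun x => sig α J J' μ x.1
  have hcount : 2 ^ J.card - 1 + J'.card ≤ Nat.card (Set.range s) := by
    refine count_range s J J' ?_ ?_
    · intro S' hS' hne'
      obtain ⟨x, hx1, hx2⟩ := hb1 S' hS' hne'
      have hxα : x ≠ α := by
        rintro rfl
        rw [supp_self] at hx1
        subst hx1
        simp at hne'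
      refine ⟨⟨x, hxα⟩, ?_⟩
      show (supp α J x, decide (Pb α J' μ x)) = (S', false)
      rw [hx1]
      simp [hx2]
    · intro T hT
      obtain ⟨x, hx1, hx2⟩ := hb2 T hT
      have hxα : x ≠ α := by
        rintro rfl
        rw [supp_self] at hx1
        exact absurd hx1.symm (Finset.singleton_ne_empty T)
      refine ⟨⟨x, hxα⟩, ?_⟩
      show (supp α J x, decide (Pb α J' μ x)) = ({T}, true)
      rw [hx1]
      simp [hx2]
  have hcX : Nat.card {x // x ≠ α} = n - 1 := by
    have h5 := card_subtype_add (fun x => x = α)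
    have h6 : Nat.card {x // x = α} = 1 := Nat.card_unique
    have h7 : Nat.card {x // ¬ x = α} = Nat.card {x // x ≠ α} := rfl
    omega
  have hn1 : 1 ≤ n := by
    rw [← hX]
    exact Nat.card_pos_iff.mpr ⟨⟨α⟩, inferInstance⟩
  have hfin : Finite (Set.range s) := Set.finite_range s
  have e2 := IH (n - 1) (by omega) {x // x ≠ α} ψ.range (Set.range s) (Set.rangeFactorization s)
    hcX Set.rangeFactorization_surjective (by
      rintro _ ⟨g, rfl⟩ x
      apply Subtype.ext
      show sig α J J' μ (g.1 x.1) = sig α J J' μ x.1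
      exact sig_inv hJO hJ'O (hKP g.1 g.2) (hKP g.1⁻¹ (K.inv_mem g.2)) x.1) a' ha''
  -- the number of factors is smaller than the degree
  have hj2 := two_pow_le_card hO hJO hout (α := α)
  have hcO : Nat.card ↥O = O.card := Nat.card_eq_fintype_card.trans (Fintype.card_coe O)
  obtain ⟨T₀, hT₀⟩ := hne
  have hcconj : ∀ T ∈ O, Nat.card T = Nat.card T₀ := by
    intro T hT
    obtain ⟨g, _, hg⟩ := htr T₀ hT₀ T hT
    rw [← hg, card_cj]
  have hc5 : 5 ≤ Nat.card T₀ := by
    obtain ⟨x, hx, y, hy, hxy⟩ := hO.nonab T₀ hT₀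
    exact five_le_card T₀ hx hy hxy
  have hnum : O.card < n ∧ (J ≠ O → O.card ≤ 2 * J.card) := by
    by_cases hJeq : J = O
    · refine ⟨?_, fun h' => absurd hJeq h'⟩
      subst hJeq
      exact Nat.lt_two_pow_self.trans_le (hX ▸ hj2)
    · have hb := card_bound hO hJO hJtr _ hcconj (by omega)
      refine ⟨?_, fun _ => hb⟩
      by_cases hj3 : 3 ≤ J.card
      · have := two_mul_lt _ hj3
        omega
      · -- here we use the semiregularity
        have hex : ∃ T' ∈ O, T' ∉ J := by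
          by_contra hcon
          push Not at hcon
          exact hJeq (Finset.Subset.antisymm hJO hcon)
        obtain ⟨T', hT', hT'J⟩ := hex
        have h5 : Nat.card T' ≤ Nat.card X :=
          card_le_of_semireg (α := α) T' (fun t ht hx => semireg hO hJO hJtr hT' hT'J t ht α hx)
        have h6 := hcconj T' hT'
        omega
  have hOne : Nonempty ↥O := ⟨⟨T₀, hT₀⟩⟩
  have e1 := IH O.card hnum.1 ↥O φ.range Unit (fun _ => ()) hcO (fun u => ⟨hOne.some, rfl⟩)
    (fun _ _ _ => rfl) b' hb'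
  simp only [Nat.card_unique] at e1
  -- the arithmetic
  have hj7 := seven_le J.card
  have hJle : J.card ≤ O.card := Finset.card_le_card hJO
  have hfinal : 3 * J.card + 4 * O.card ≤ 4 * (2 ^ J.card - 1 + J'.card) + 4 := by
    have hpos : 1 ≤ 2 ^ J.card := Nat.one_le_two_pow
    by_cases hJeq : J = O
    · rw [hJ'card, if_pos hJeq]
      subst hJeq
      omega
    · rw [hJ'card, if_neg hJeq]
      have := hnum.2 hJeq
      omega
  omega

end Cfsg.Agent.Lib.CompLenNA
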