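import Mathlib

/-!
# Automorphisms of the complex numbers

Field automorphisms of subfields of `ℂ` extend to `ℂ`; hence for `k` prime to `N` there is a ring
automorphism of `ℂ` raising all `N`-th roots of unity to the `k`-th power.
-/

set_option autoImplicit false
set_option linter.unusedSectionVars false
set_option linter.unusedVariables false

namespace Cfsg.Agent.Lib.ComplexAut

open Polynomial

/-- A ring automorphism of a subfield of `ℂ` extends to `ℂ`. -/
theorem exists_extend (L : Type*) [Field L] [Algebra L ℂ] (τ : L ≃+* L) :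
    ∃ σ : ℂ ≃+* ℂ, ∀ a : L, σ (algebraMap L ℂ a) = algebraMap L ℂ (τ a) := by
  classical
  obtain ⟨s, hs⟩ := exists_isTranscendenceBasis L ℂ
  let v : s → ℂ := Subtype.val
  have hv : IsTranscendenceBasis L v := hs
  letI := IsAlgClosed.isAlgClosure_of_transcendence_basis v hv
  let A := Algebra.adjoin L (Set.range v)
  let e₁ : MvPolynomial s L ≃+* MvPolynomial s L := MvPolynomial.mapEquiv s τ
  let e₂ : MvPolynomial s L ≃ₐ[L] A := hv.1.aevalEquiv
  let e : A ≃+* A := e₂.symm.toRingEquiv.trans (e₁.trans e₂.toRingEquiv)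
  refine ⟨IsAlgClosure.equivOfEquiv ℂ ℂ e, fun a => ?_⟩
  have h1 : algebraMap L ℂ a = algebraMap A ℂ (algebraMap L A a) := rfl
  rw [h1, IsAlgClosure.equivOfEquiv_algebraMap]
  have h2 : e (algebraMap L A a) = algebraMap L A (τ a) := by
    show e₂ (e₁ (e₂.symm (algebraMap L A a))) = _
    rw [AlgEquiv.commutes]
    show e₂ (MvPolynomial.map τ (MvPolynomial.C a)) = _
    rw [MvPolynomial.map_C]
    exact AlgEquiv.commutes e₂ (τ a)
  rw [h2]
  rfl

/-- For `k` prime to `N`, some automorphism of `ℂ` acts as `z ↦ z ^ k` on `N`-th roots of unity. -/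
theorem exists_ringEquiv_pow {N : ℕ} (hN : 0 < N) {k : ℕ} (hk : k.Coprime N) :
    ∃ σ : ℂ ≃+* ℂ, ∀ z : ℂ, z ^ N = 1 → σ z = z ^ k := by
  classical
  haveI : NeZero N := ⟨hN.ne'⟩
  let L := CyclotomicField N ℚ
  have : IsCyclotomicExtension {N} ℚ L := CyclotomicField.isCyclotomicExtension N ℚ
  obtain ⟨φ⟩ : Nonempty (L →ₐ[ℚ] ℂ) := ⟨IsAlgClosed.lift⟩
  letI : Algebra L ℂ := φ.toRingHom.toAlgebra
  have hz := IsCyclotomicExtension.zeta_spec N ℚ L
  set z₀ := IsCyclotomicExtension.zeta N ℚ L with hz₀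
  have hμ : IsPrimitiveRoot (z₀ ^ k) N := hz.pow_of_coprime k hk
  have hirr : Irreducible (cyclotomic N ℚ) := cyclotomic.irreducible_rat hN
  let τ := IsCyclotomicExtension.fromZetaAut hμ hirr
  obtain ⟨σ, hσ⟩ := exists_extend L τ.toRingEquiv
  refine ⟨σ, fun z hzN => ?_⟩
  have hz' : IsPrimitiveRoot (algebraMap L ℂ z₀) N :=
    hz.map_of_injective (algebraMap L ℂ).injective
  obtain ⟨i, -, rfl⟩ := hz'.eq_pow_of_pow_eq_one hzN
  have : τ.toRingEquiv z₀ = z₀ ^ k := IsCyclotomicExtension.fromZetaAut_spec hμ hirr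
  rw [map_pow, hσ, this, map_pow, ← pow_mul, ← pow_mul, mul_comm]

end Cfsg.Agent.Lib.ComplexAut
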