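import Mathlib
import Cfsg.Agent.Lib.Glauberman2
import Cfsg.Agent.Lib.CoprimeInv
import Cfsg.Agent.Lib.OddLocalB

/-!
# Coprime action with fixed points of prime index

If `A` acts coprimely on `K` (one of them solvable) and `C_K(A)` has prime index `p` in `K`, then
`[K, A]` has order `p`.
-/

set_option autoImplicit false
set_option linter.style.haveILetI false

open scoped Pointwise commutatorElement

namespace Cfsg.Agent.Lib.CoprimeIndexP

open Cfsg.Agent.Lib.Coprime Cfsg.Agent.Lib.Glauberman Cfsg.Agent.Lib.Glauberman2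

universe u

variable {G : Type u} [Group G] [Finite G]

/-- `C_K(A)` normalizes `[K, A]`. -/
theorem inf_centralizer_le_normalizer {A K : Subgroup G}
    (hAK : A ≤ Subgroup.normalizer (K : Set G)) :
    K ⊓ Subgroup.centralizer (A : Set G) ≤ Subgroup.normalizer ((⁅K, A⁆ : Subgroup G) : Set G) := by
  intro c hc
  rw [Subgroup.mem_normalizer_iff_map_conj_eq, Subgroup.map_commutator]
  have h1 := Subgroup.mem_normalizer_iff_map_conj_eq.mp (Subgroup.le_normalizer hc.1)
  have h2 : Subgroup.map (↑(MulAut.conj c) : G →* G) A = A := by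
    ext x
    constructor
    · rintro ⟨y, hy, rfl⟩
      have h3 : y * c = c * y := Subgroup.mem_centralizer_iff.1 hc.2 y hy
      have h4 : c * y * c⁻¹ = y := by rw [← h3]; group
      show c * y * c⁻¹ ∈ A
      rw [h4]; exact hy
    · intro hx
      refine ⟨x, hx, ?_⟩
      have h3 : x * c = c * x := Subgroup.mem_centralizer_iff.1 hc.2 x hx
      show c * x * c⁻¹ = x
      rw [← h3]; group
  rw [h1, h2]

/-- Index of the fixed points in `[K, A]` is the index of the fixed points in `K`. -/
theorem relIndex_commutator {A K : Subgroup G} (hAK : A ≤ Subgroup.normalizer (K : Set G))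
    (hcop : (Nat.card A).Coprime (Nat.card K)) (hsolv : Group.IsSolvable A ∨ Group.IsSolvable K) :
    ((⁅K, A⁆ : Subgroup G) ⊓ Subgroup.centralizer (A : Set G)).relIndex ⁅K, A⁆ =
      (K ⊓ Subgroup.centralizer (A : Set G)).relIndex K := by
  set L : Subgroup G := ⁅K, A⁆ with hL
  set C₀ := K ⊓ Subgroup.centralizer (A : Set G) with hC₀
  have hLK : L ≤ K := commutator_le_of_le_normalizer hAK
  have hsup : L ⊔ C₀ = K := commutator_sup_inf_centralizer hAK hcop hsolv
  have hnorm : C₀ ≤ Subgroup.normalizer (L : Set G) := inf_centralizer_le_normalizer hAK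
  have hcard := Cfsg.Agent.Lib.CoprimeInv.card_sup_mul_card_inf hnorm
  rw [sup_comm, hsup] at hcard
  have hinf : C₀ ⊓ L = L ⊓ Subgroup.centralizer (A : Set G) := by
    ext x
    constructor
    · rintro ⟨h1, h2⟩
      exact ⟨h2, h1.2⟩
    · rintro ⟨h1, h2⟩
      exact ⟨⟨hLK h1, h2⟩, h1⟩
  rw [hinf] at hcard
  have h1 := relIndex_mul_card_of_le (inf_le_left : C₀ ≤ K)
  have h2 := relIndex_mul_card_of_le (inf_le_left : L ⊓ Subgroup.centralizer (A : Set G) ≤ L)
  have hC : 0 < Nat.card (L ⊓ Subgroup.centralizer (A : Set G) : Subgroup G) := Nat.card_pos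
  have hC0 : 0 < Nat.card C₀ := Nat.card_pos
  have h3 : (L ⊓ Subgroup.centralizer (A : Set G)).relIndex L * (Nat.card (L ⊓ Subgroup.centralizer (A : Set G) : Subgroup G) * Nat.card C₀)
      = C₀.relIndex K * (Nat.card (L ⊓ Subgroup.centralizer (A : Set G) : Subgroup G) * Nat.card C₀) := by
    calc _ = Nat.card L * Nat.card C₀ := by rw [← mul_assoc, h2]
      _ = Nat.card K * Nat.card (L ⊓ Subgroup.centralizer (A : Set G) : Subgroup G) := by
        rw [hcard, mul_comm]
      _ = _ := by rw [← h1]; ring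
  exact Nat.eq_of_mul_eq_mul_right (Nat.mul_pos hC hC0) h3

/-- Abelian case: with `[M, A] = M`, the fixed points are trivial. -/
theorem inf_centralizer_eq_bot_of_comm {A M : Subgroup G}
    (hAM : A ≤ Subgroup.normalizer (M : Set G)) (hcop : (Nat.card A).Coprime (Nat.card M))
    (hcomm : ∀ x ∈ M, ∀ y ∈ M, x * y = y * x) (hM : M ≤ ⁅M, A⁆) :
    M ⊓ Subgroup.centralizer (A : Set G) = ⊥ := by
  set X := M ⊔ A with hX
  have hMX : M ≤ X := le_sup_left
  have hAX : A ≤ X := le_sup_right
  set H := M.subgroupOf X with hH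
  set K := A.subgroupOf X with hK
  haveI hHn : H.Normal := by
    rw [hH, hX, sup_comm]
    exact Subgroup.normal_subgroupOf_sup_of_le_normalizer hAM
  have hcard1 : Nat.card H = Nat.card M := card_subgroupOf_of_le hMX
  have hcard2 : Nat.card K = Nat.card A := card_subgroupOf_of_le hAX
  have hmapH : H.map X.subtype = M := by
    rw [hH, Subgroup.map_subgroupOf_eq_of_le hMX]
  have hmapK : K.map X.subtype = A := by
    rw [hK, Subgroup.map_subgroupOf_eq_of_le hAX]
  have hle : H ≤ ⁅H, K⁆ := by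
    rw [← Subgroup.map_le_map_iff_of_injective X.subtype_injective, Subgroup.map_commutator, hmapH, hmapK]
    exact hM
  have hmain := Cfsg.Agent.Lib.OddLocalB.inf_centralizer_le_commutator H K
    (by rw [hcard1, hcard2]; exact hcop) hle
  have hHH : (⁅H, H⁆ : Subgroup X) = ⊥ := by
    rw [eq_bot_iff, Subgroup.commutator_le]
    intro x hx y hy
    rw [Subgroup.mem_bot]
    apply commutatorElement_eq_one_iff_mul_comm.2
    apply Subtype.ext
    exact hcomm _ hx _ hy
  rw [hHH] at hmain
  rw [eq_bot_iff]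
  rintro c ⟨hc1, hc2⟩
  have hcX : c ∈ X := hMX hc1
  have hc3 : (⟨c, hcX⟩ : X) ∈ H ⊓ Subgroup.centralizer (K : Set X) := by
    refine ⟨hc1, ?_⟩
    show (⟨c, hcX⟩ : X) ∈ Subgroup.centralizer (K : Set X)
    rw [Subgroup.mem_centralizer_iff]
    intro h hh
    apply Subtype.ext
    exact Subgroup.mem_centralizer_iff.1 hc2 _ hh
  have hc4 := hmain hc3
  rw [Subgroup.mem_bot] at hc4
  rw [Subgroup.mem_bot]
  exact congrArg Subtype.val hc4

/-- The `p`-group case. -/
theorem card_commutator_of_pgroup {A Q : Subgroup G} {p : ℕ} [hp : Fact p.Prime]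
    (hAQ : A ≤ Subgroup.normalizer (Q : Set G)) (hcop : (Nat.card A).Coprime (Nat.card Q))
    (hQ : IsPGroup p Q) (hidx : (Q ⊓ Subgroup.centralizer (A : Set G)).relIndex Q = p) :
    Nat.card (⁅Q, A⁆ : Subgroup G) = p := by
  classical
  have hpp := hp.out
  have hsolv : Group.IsSolvable A ∨ Group.IsSolvable Q := by
    right
    haveI := hQ.isNilpotent
    infer_instance
  set M : Subgroup G := ⁅Q, A⁆ with hM
  have hMQ : M ≤ Q := commutator_le_of_le_normalizer hAQ
  have hMp : IsPGroup p M := hQ.to_le hMQ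
  have hAM : A ≤ Subgroup.normalizer (M : Set G) := le_normalizer_commutator hAQ
  have hMM : ⁅M, A⁆ = M := commutator_commutator_eq hAQ hcop hsolv
  set CM := M ⊓ Subgroup.centralizer (A : Set G) with hCM
  have hidxM : CM.relIndex M = p := by
    rw [hCM, hM, relIndex_commutator hAQ hcop hsolv, hidx]
  have hcopM : (Nat.card A).Coprime (Nat.card M) :=
    Nat.Coprime.coprime_dvd_right (Subgroup.card_dvd_of_le hMQ) hcop
  -- normality of `CM` in `M`
  have hCM_le : CM ≤ M := inf_le_left
  have hcardM := relIndex_mul_card_of_le hCM_le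
  rw [hidxM] at hcardM
  have hn : (CM.subgroupOf M).Normal := by
    apply Subgroup.normal_of_index_eq_minFac_card
    obtain ⟨k, hk⟩ := IsPGroup.iff_card.1 hMp
    have hk0 : k ≠ 0 := by
      rintro rfl
      rw [pow_zero] at hk
      rw [hk] at hcardM
      exact hpp.one_lt.ne' (Nat.eq_one_of_mul_eq_one_right hcardM)
    rw [hk, Nat.Prime.pow_minFac hpp hk0]
    exact hidxM
  -- `[M, CM] ≤ CM`
  have hcomm1 : ⁅M, CM⁆ ≤ CM := by
    rw [Subgroup.commutator_le]
    intro m hm c hc
    have h1 : (⟨c, hc.1⟩ : M) ∈ CM.subgroupOf M := hc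
    have h2 := hn.conj_mem _ h1 ⟨m, hm⟩
    have h3 : m * c * m⁻¹ ∈ CM := h2
    rw [commutatorElement_def]
    exact CM.mul_mem h3 (CM.inv_mem hc)
  have hCA : ⁅CM, A⁆ = ⊥ := by
    rw [eq_bot_iff, Subgroup.commutator_le]
    intro c hc a ha
    rw [Subgroup.mem_bot]
    apply commutatorElement_eq_one_iff_mul_comm.2
    exact (Subgroup.mem_centralizer_iff.1 hc.2 a ha).symm
  have h1 : ⁅⁅M, CM⁆, A⁆ = ⊥ := by
    rw [eq_bot_iff, ← hCA]
    exact Subgroup.commutator_mono hcomm1 le_rfl
  have h2 : ⁅⁅CM, A⁆, M⁆ = ⊥ := by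
    rw [hCA, Subgroup.commutator_bot_left]
  have h3 := Subgroup.commutator_commutator_eq_bot_of_rotate h1 h2
  rw [Subgroup.commutator_comm A M, hMM] at h3
  -- `CM` is central in `M`
  have hcen : ∀ m ∈ M, ∀ c ∈ CM, m * c = c * m := by
    intro m hm c hc
    have : ⁅m, c⁆ ∈ (⁅M, CM⁆ : Subgroup G) := Subgroup.commutator_mem_commutator hm hc
    rw [h3, Subgroup.mem_bot] at this
    exact commutatorElement_eq_one_iff_mul_comm.1 this
  -- `M` is abelian
  have hab : ∀ x ∈ M, ∀ y ∈ M, x * y = y * x := by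
    intro x hx y hy
    by_cases hxC : x ∈ CM
    · exact (hcen y hy x hxC).symm
    -- `T = M ⊓ C(x)` contains `CM` properly
    set T := M ⊓ Subgroup.centralizer ({x} : Set G) with hT
    have hCT : CM ≤ T := by
      intro c hc
      refine ⟨hc.1, ?_⟩
      show c ∈ Subgroup.centralizer ({x} : Set G)
      rw [Subgroup.mem_centralizer_iff]
      intro z hz
      rw [Set.mem_singleton_iff] at hz
      rw [hz]
      exact hcen x hx c hc
    have hxT : x ∈ T := by
      refine ⟨hx, ?_⟩
      show x ∈ Subgroup.centralizer ({x} : Set G)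
      rw [Subgroup.mem_centralizer_iff]
      intro z hz
      rw [Set.mem_singleton_iff] at hz
      rw [hz]
    have hTM : T ≤ M := inf_le_left
    have hcardT := relIndex_mul_card_of_le hCT
    have hcardT2 := relIndex_mul_card_of_le hTM
    have hne : CM.relIndex T ≠ 1 := by
      intro h1
      rw [h1, one_mul] at hcardT
      have := Subgroup.eq_of_le_of_card_ge hCT hcardT.ge
      exact hxC (this ▸ hxT)
    have hmul : T.relIndex M * CM.relIndex T = p := by
      have hpos : 0 < Nat.card CM := Nat.card_pos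
      apply Nat.eq_of_mul_eq_mul_right hpos
      rw [mul_assoc, hcardT, hcardT2, hcardM]
    have hT1 : T.relIndex M = 1 := by
      have h4 : CM.relIndex T ∣ p := ⟨_, by rw [mul_comm]; exact hmul.symm⟩
      rcases (Nat.dvd_prime hpp).1 h4 with h5 | h5
      · exact (hne h5).elim
      · rw [h5] at hmul
        exact Nat.eq_of_mul_eq_mul_right hpp.pos (by rw [hmul, one_mul])
    rw [hT1, one_mul] at hcardT2
    have hTeq : T = M := Subgroup.eq_of_le_of_card_ge hTM hcardT2.ge
    have hyT : y ∈ T := hTeq ▸ hy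
    exact Subgroup.mem_centralizer_iff.1 hyT.2 x rfl
  have hbot := inf_centralizer_eq_bot_of_comm hAM hcopM hab hMM.ge
  rw [← hCM] at hbot
  rw [hbot, Subgroup.card_bot, mul_one] at hcardM
  exact hcardM.symm

/-- **Coprime action, prime index of fixed points.** -/
theorem card_commutator_of_relIndex_prime {A K : Subgroup G}
    (hAK : A ≤ Subgroup.normalizer (K : Set G)) (hcop : (Nat.card A).Coprime (Nat.card K))
    (hsolv : Group.IsSolvable A ∨ Group.IsSolvable K) (p : ℕ) (hp : p.Prime)
    (hidx : (K ⊓ Subgroup.centralizer (A : Set G)).relIndex K = p) :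
    Nat.card (⁅K, A⁆ : Subgroup G) = p := by
  classical
  haveI : Fact p.Prime := ⟨hp⟩
  set L : Subgroup G := ⁅K, A⁆ with hL
  have hLK : L ≤ K := commutator_le_of_le_normalizer hAK
  have hAL : A ≤ Subgroup.normalizer (L : Set G) := le_normalizer_commutator hAK
  have hLL : ⁅L, A⁆ = L := commutator_commutator_eq hAK hcop hsolv
  have hcopL : (Nat.card A).Coprime (Nat.card L) :=
    Nat.Coprime.coprime_dvd_right (Subgroup.card_dvd_of_le hLK) hcop
  have hsolvL : Group.IsSolvable A ∨ Group.IsSolvable L := solvable_of_le hLK hsolv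
  set C := L ⊓ Subgroup.centralizer (A : Set G) with hC
  have hCL : C ≤ L := inf_le_left
  have hidxL : C.relIndex L = p := by
    rw [hC, hL, relIndex_commutator hAK hcop hsolv, hidx]
  -- invariant Sylow
  obtain ⟨P₀, hP₀⟩ := exists_invariant_sylow hAL hcopL hsolvL p
  set P := (P₀ : Subgroup L).map L.subtype with hP
  have hPL : P ≤ L := Subgroup.map_subtype_le _
  have hPp : IsPGroup p P := P₀.isPGroup'.map L.subtype
  have hcopP : (Nat.card A).Coprime (Nat.card P) :=
    Nat.Coprime.coprime_dvd_right (Subgroup.card_dvd_of_le hPL) hcopL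
  -- index of fixed points in `P`
  have hPidx : (P ⊓ Subgroup.centralizer (A : Set G)).relIndex P = p := by
    have h1 : P ⊓ Subgroup.centralizer (A : Set G) = C ⊓ P := by
      ext x
      constructor
      · rintro ⟨h2, h3⟩
        exact ⟨⟨hPL h2, h3⟩, h2⟩
      · rintro ⟨h2, h3⟩
        exact ⟨h3, h2.2⟩
    rw [h1, Subgroup.inf_relIndex_right]
    have hle : C.relIndex P ≤ p := by
      rw [← hidxL]
      apply Subgroup.relIndex_le_of_le_right hPL
      rw [hidxL]
      exact hp.ne_zero
    have hne1 : C.relIndex P ≠ 1 := by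
      intro h1
      have hPC : P ≤ C := Subgroup.relIndex_eq_one.1 h1
      have h2 := relIndex_mul_card_of_le hCL
      rw [hidxL] at h2
      have h3 : (P₀ : Subgroup L).index * Nat.card (P₀ : Subgroup L) = Nat.card L :=
        Subgroup.index_mul_card _
      have h4 : Nat.card (P₀ : Subgroup L) = Nat.card P :=
        (Subgroup.card_map_of_injective L.subtype_injective).symm
      obtain ⟨j, hj⟩ := Subgroup.card_dvd_of_le hPC
      rw [h4] at h3
      have h5 : (P₀ : Subgroup L).index * Nat.card P = (p * j) * Nat.card P := by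
        rw [h3, ← h2, hj]; ring
      have h6 := Nat.eq_of_mul_eq_mul_right Nat.card_pos h5
      apply P₀.not_dvd_index
      rw [h6]
      exact dvd_mul_right p j
    have hdvd : C.relIndex P ∣ Nat.card P := by
      rw [← Subgroup.inf_relIndex_right, ← h1]
      exact ⟨_, (relIndex_mul_card_of_le inf_le_left).symm⟩
    obtain ⟨k, hk⟩ := IsPGroup.iff_card.1 hPp
    rw [hk] at hdvd
    obtain ⟨a, _, ha⟩ := (Nat.dvd_prime_pow hp).1 hdvd
    rw [ha] at hle hne1 ⊢
    have ha0 : a ≠ 0 := by
      rintro rfl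
      exact hne1 (pow_zero p)
    have ha1 : a = 1 := by
      by_contra hne
      have h2 : 2 ≤ a := by omega
      have h3 : p ^ 2 ≤ p ^ a := Nat.pow_le_pow_right hp.pos h2
      have h4 := hp.two_le
      nlinarith
    rw [ha1, pow_one]
  set M : Subgroup G := ⁅P, A⁆ with hM
  have hMc : Nat.card M = p := card_commutator_of_pgroup hP₀ hcopP hPp hPidx
  have hMP : M ≤ P := commutator_le_of_le_normalizer hP₀
  have hAM : A ≤ Subgroup.normalizer (M : Set G) := le_normalizer_commutator hP₀
  have hsolvP : Group.IsSolvable A ∨ Group.IsSolvable P := solvable_of_le hPL hsolvL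
  -- `M ⊓ C_G(A) = 1`
  have hMinf : M ⊓ Subgroup.centralizer (A : Set G) = ⊥ := by
    have h1 := relIndex_commutator hP₀ hcopP hsolvP
    rw [hPidx, ← hM] at h1
    have h2 := relIndex_mul_card_of_le (inf_le_left : M ⊓ Subgroup.centralizer (A : Set G) ≤ M)
    rw [h1, hMc] at h2
    have h3 : Nat.card (M ⊓ Subgroup.centralizer (A : Set G) : Subgroup G) = 1 :=
      Nat.eq_of_mul_eq_mul_left hp.pos (by rw [h2, mul_one])
    exact Subgroup.card_eq_one.1 h3
  have hML : M ≤ L := hMP.trans hPL
  -- transversal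
  have htrans : ∀ u ∈ L, ∃ m ∈ M, m⁻¹ * u ∈ C := by
    let f : M → (L ⧸ C.subgroupOf L) := fun m => ((⟨m, hML m.2⟩ : L) : L ⧸ C.subgroupOf L)
    have hinj : Function.Injective f := by
      intro m m' hmm
      have h1 := QuotientGroup.eq.1 hmm
      have h2 : (m : G)⁻¹ * m' ∈ C := h1
      have h3 : (m : G)⁻¹ * m' ∈ M ⊓ Subgroup.centralizer (A : Set G) :=
        ⟨M.mul_mem (M.inv_mem m.2) m'.2, h2.2⟩
      rw [hMinf, Subgroup.mem_bot] at h3
      exact Subtype.ext (inv_mul_eq_one.1 h3)
    have hcardq : Nat.card (L ⧸ C.subgroupOf L) = Nat.card M := by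
      rw [hMc, ← hidxL]
      rfl
    have hbij := hinj.bijective_of_nat_card_le hcardq.le
    intro u hu
    obtain ⟨m, hm⟩ := hbij.2 ((⟨u, hu⟩ : L) : L ⧸ C.subgroupOf L)
    refine ⟨m, m.2, ?_⟩
    have h1 := QuotientGroup.eq.1 hm
    exact h1
  -- conclusion
  have hLM : L ≤ M := by
    rw [← hLL, Subgroup.commutator_le]
    intro u hu a ha
    obtain ⟨m, hm, hc⟩ := htrans u hu
    have hca : (m⁻¹ * u) * a = a * (m⁻¹ * u) := (Subgroup.mem_centralizer_iff.1 hc.2 a ha).symm
    have h1 : ⁅u, a⁆ = m * (a * m⁻¹ * a⁻¹) := by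
      have h2 : u = m * (m⁻¹ * u) := by group
      set c := m⁻¹ * u with hc'
      rw [commutatorElement_def, h2]
      calc m * c * a * (m * c)⁻¹ * a⁻¹ = m * (c * a) * c⁻¹ * m⁻¹ * a⁻¹ := by group
        _ = m * (a * c) * c⁻¹ * m⁻¹ * a⁻¹ := by rw [hca]
        _ = _ := by group
    rw [h1]
    exact M.mul_mem hm ((Subgroup.mem_normalizer_iff.1 (hAM ha) _).1 (M.inv_mem hm))
  have : L = M := le_antisymm hLM hML
  rw [this, hMc]

end Cfsg.Agent.Lib.CoprimeIndexP
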