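import Mathlib
import Cfsg.Agent.Lib.F4K
import Cfsg.Agent.Lib.CosetCert2

/-!
# `SL₂(F₄)` is the `(2,3,5)` triangle group

Any two elements `a`, `b` of a group with `a² = b³ = (ab)⁵ = 1` are the images of two fixed generators of
`SL₂(F₄)` under a homomorphism (verified coset table).
-/

set_option autoImplicit false
set_option linter.unusedSimpArgs false
set_option linter.unusedVariables false
set_option linter.unusedSectionVars false

namespace Cfsg.Agent.Lib.SL2F4Tri

open Cfsg.Agent.Lib.CosetCert Cfsg.Agent.Lib.CosetCert2 Cfsg.Agent.Lib.F4K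

/-- `SL₂(F₄)`. -/
abbrev S := Matrix.SpecialLinearGroup (Fin 2) K4

/-- `ω`. -/
def w1 : K4 := (⟨2, by decide⟩ : Fin 4)
/-- `ω²`. -/
def w2 : K4 := (⟨3, by decide⟩ : Fin 4)

/-- A matrix from its entries. -/
def mk (a b c d : K4) (h : a * d + b * c = 1) : S :=
  ⟨!![a, b; c, d], by
    rw [Matrix.det_fin_two_of, sub_eq_add_neg]
    have : ∀ x : K4, -x = x := fun x => rfl
    rw [this, h]⟩

/-- The involution. -/
def s0 : S := mk 0 1 1 0 (by decide +kernel)
/-- The element of order three. -/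
def b0 : S := mk w1 0 w1 w2 (by decide +kernel)

/-- Packed coset table. -/
def tabNat : ℕ := 0xe39eb6dfbef8d39ef3eb6bb7eadd29aa9d79ca8e28cf1c27ca7c6fba6c26bf7b25da5b6baa4b24af5d748f3ca0c707efb9eb6c6eba9a898a588e18178978685569dd52651e71b4dd4dc9594a449a4638908603df54e59f35e74c71b2da64a4096494583885c83d63075473542864c62d245014f38434c0cb2821012411480801c00c6144003081
/-- Coset table. -/
def T (i g : ℕ) : ℕ := (tabNat >>> (6 * (3 * i + g))) % 64
/-- Packed tree. -/
def parNat : ℕ := 0xa9a39c998a877d7c7a797776747371706e6d69605d5a514e4a494746403e3d3b3a3833302d2a2724211e1d1c1a19171614130f0c0906050402010000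
/-- Tree. -/
def par (i : ℕ) : ℕ := (parNat >>> (8 * i)) % 256
/-- Deductions. -/
def steps : List ℕ := [1, 260, 65537, 65796, 131333, 262405, 393217, 458753, 524289, 589825, 655621, 786693, 1179649, 1245185, 1310721, 1376257, 1507329, 1507587, 1572865, 1638659, 1769734, 2097414, 2359297, 2424833, 2490369, 2555905, 2621441, 2686977, 3538945, 3670017, 3670273]
/-- Relators. -/
def rels : List (List ℕ) := [[1, 1, 1], [1, 0, 1, 0, 1, 0, 1, 0, 1, 0]]
/-- Codes of the elements. -/
def codes : List ℕ := [65, 20, 226, 163, 184, 172, 46, 58, 139, 202, 103, 73, 223, 229, 157, 22, 127, 181, 118, 148, 253, 94, 217, 97, 247, 91, 45, 248, 108, 198, 59, 135, 242, 147, 57, 206, 210, 143, 179, 120, 47, 236, 131, 81, 21, 154, 113, 194, 44, 84, 69, 106, 212, 56, 169, 23, 166, 77, 190, 235]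
/-- Inverse letters. -/
def invL : ℕ → ℕ
  | 0 => 0
  | 1 => 2
  | 2 => 1
  | n => n

theorem check_ok : check T invL 3 60 par [] rels steps = true := by
  decide +kernel

/-- The code of a matrix. -/
def code (σ : S) : ℕ :=
  (σ.1 0 0 : Fin 4).1 + 4 * (σ.1 0 1 : Fin 4).1 + 16 * (σ.1 1 0 : Fin 4).1 + 64 * (σ.1 1 1 : Fin 4).1

/-- The node of a matrix. -/
def idx (σ : S) : ℕ := codes.idxOf (code σ)

theorem idx_one : idx 1 = 0 := by decide +kernel
theorem idx_lt : ∀ σ : S, idx σ < 60 := by decide +kernel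
theorem T_idx0 : ∀ σ : S, T (idx σ) 0 = idx (s0 * σ) := by decide +kernel
theorem T_idx1 : ∀ σ : S, T (idx σ) 1 = idx (b0 * σ) := by decide +kernel

theorem card_S : Fintype.card S = 60 := by decide +kernel

theorem s0_sq : s0 * s0 = 1 := by decide +kernel
theorem b0_cube : b0 * b0 * b0 = 1 := by decide +kernel
theorem s0b0_five : (s0 * b0) ^ 5 = 1 := by decide +kernel

/-- Every element is `1` or obtained by a letter from an element of smaller index. -/
theorem step : ∀ σ : S, σ = 1 ∨ ∃ τ : S, idx τ < idx σ ∧ (σ = s0 * τ ∨ σ = b0 * τ ∨ σ = b0 * b0 * τ) := by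
  decide +kernel

section
variable {H : Type*} [Group H]

/-- The generators. -/
def gen (a b : H) : ℕ → H
  | 0 => a
  | 1 => b
  | 2 => b⁻¹
  | _ => 1

theorem exists_hom {a b : H} (haa : a * a = 1) (hbbb : b * b * b = 1) (hab : (a * b) ^ 5 = 1) :
    ∃ φ : S →* H, φ s0 = a ∧ φ b0 = b := by
  have hinv : ∀ g, g < 3 → gen a b (invL g) = (gen a b g)⁻¹ := by
    intro g hg
    interval_cases g
    · show a = a⁻¹
      rw [eq_inv_iff_mul_eq_one]; exact haa
    · show b⁻¹ = b⁻¹
      rfl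
    · show b = (b⁻¹)⁻¹
      simp
  have hrel : ∀ r ∈ rels, ev (gen a b) r = 1 := by
    intro r hr
    simp only [rels, List.mem_cons, List.not_mem_nil, or_false] at hr
    rcases hr with rfl | rfl
    · simp only [ev_cons, ev_nil, gen, one_mul]
      exact hbbb
    · simp only [ev_cons, ev_nil, gen, one_mul]
      simpa [pow_succ, mul_assoc] using hab
  obtain ⟨v, hv0, hv⟩ := table_sound (X := H) (gen a b) T invL 3 60 par [] rels steps (by norm_num) hinv
    (1 : H) (by simp) hrel check_ok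
  let Φ : S → H := fun σ => v (idx σ)
  have hΦ1 : Φ 1 = 1 := by
    show v (idx 1) = 1
    rw [idx_one, hv0]
  have h0 : ∀ σ, Φ (s0 * σ) = a * Φ σ := by
    intro σ
    show v (idx _) = a * v (idx σ)
    rw [← T_idx0]
    exact (hv _ (idx_lt σ) 0 (by norm_num)).2
  have h1 : ∀ σ, Φ (b0 * σ) = b * Φ σ := by
    intro σ
    show v (idx _) = b * v (idx σ)
    rw [← T_idx1]
    exact (hv _ (idx_lt σ) 1 (by norm_num)).2
  have hs : Φ s0 = a := by
    have := h0 1
    rwa [mul_one, hΦ1, mul_one] at this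
  have hb : Φ b0 = b := by
    have := h1 1
    rwa [mul_one, hΦ1, mul_one] at this
  have hmul : ∀ σ τ : S, Φ (σ * τ) = Φ σ * Φ τ := by
    intro σ
    induction' hn : idx σ using Nat.strong_induction_on with n ih generalizing σ
    rcases step σ with rfl | ⟨ρ, hρ, rfl | rfl | rfl⟩
    · intro τ
      rw [one_mul, hΦ1, one_mul]
    · intro τ
      rw [mul_assoc, h0, h0, ih (idx ρ) (hn ▸ hρ) ρ rfl, mul_assoc]
    · intro τ
      rw [mul_assoc, h1, h1, ih (idx ρ) (hn ▸ hρ) ρ rfl, mul_assoc]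
    · intro τ
      rw [mul_assoc, mul_assoc, h1, h1, mul_assoc, h1, h1, ih (idx ρ) (hn ▸ hρ) ρ rfl]
      simp only [mul_assoc]
  exact ⟨MonoidHom.mk' Φ hmul, hs, hb⟩

end

end Cfsg.Agent.Lib.SL2F4Tri
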