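import Mathlib
import Cfsg.Agent.Lib.SL2F4Tri
import Cfsg.Prelude.Def_Transfer

/-!
# Critical groups for `{1,2,3,4,5}` with a normal elementary abelian `2`-subgroup and quotient `A₅`

Such a group is the affine group `F₄² ⋊ SL₂(F₄)`: an involution and an element of order three lifting a
`(2,3,5)` generating pair of `A₅` generate a complement (triangle presentation); elements of order three
act fixed-point-freely on `N`, which forces the conjugates of a vector fixed by a Sylow `2`-subgroup to add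
like the vectors of the natural module, and criticality forces `N` to be minimal normal.
-/

set_option autoImplicit false
set_option linter.unusedSimpArgs false
set_option linter.unusedVariables false
set_option linter.unusedSectionVars false

namespace Cfsg.Agent.Lib.CritA6

open Cfsg.Agent.Lib.F4K Cfsg.Agent.Lib.SL2F4Tri

/-- `A₅`. -/
abbrev A5 := alternatingGroup (Fin 5)

/-- The involution. -/
def sb : A5 := ⟨Equiv.swap 0 1 * Equiv.swap 2 3, by rw [Equiv.Perm.mem_alternatingGroup]; decide⟩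
/-- The element of order three with `sb * bb` of order five. -/
def bb : A5 := ⟨Equiv.swap 0 2 * Equiv.swap 0 4, by rw [Equiv.Perm.mem_alternatingGroup]; decide⟩
/-- An element of order three inverted by `sb`. -/
def cb : A5 := ⟨Equiv.swap 0 1 * Equiv.swap 0 4, by rw [Equiv.Perm.mem_alternatingGroup]; decide⟩

theorem sb_sq : sb * sb = 1 := by decide +kernel
theorem sb_ne : sb ≠ 1 := by decide +kernel
theorem bb_cube : bb ^ 3 = 1 := by decide +kernel
theorem bb_ne : bb ≠ 1 := by decide +kernel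
theorem cb_cube : cb ^ 3 = 1 := by decide +kernel
theorem cb_ne : cb ≠ 1 := by decide +kernel
theorem sbbb_five : (sb * bb) ^ 5 = 1 := by decide +kernel
theorem sbbb_ne : sb * bb ≠ 1 := by decide +kernel
theorem sb_cb : sb * cb * sb⁻¹ = cb⁻¹ := by decide +kernel
theorem a5_four : ∀ a : A5, a ^ 4 = 1 → a ^ 2 = 1 := by decide +kernel

theorem card_A5 : Nat.card A5 = 60 := by
  rw [Nat.card_eq_fintype_card]; decide +kernel

/-- The data. -/
structure Ctx (G : Type*) [Group G] (N : Subgroup G) where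
  spec : Set.range (orderOf : G → ℕ) = ({1, 2, 3, 4, 5} : Set ℕ)
  comm : ∀ a ∈ N, ∀ b ∈ N, a * b = b * a
  exp2 : ∀ a ∈ N, a * a = 1
  nrm : N.Normal
  π : G →* A5
  surj : Function.Surjective π
  ker : ∀ g, π g = 1 ↔ g ∈ N

namespace Ctx

variable {G : Type*} [Group G] {N : Subgroup G} (C : Ctx G N)
include C

theorem order_mem (g : G) : orderOf g ∈ ({1, 2, 3, 4, 5} : Set ℕ) := C.spec ▸ ⟨g, rfl⟩

theorem order_three {x : G} (h : orderOf (C.π x) = 3) : orderOf x = 3 := by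
  have d : 3 ∣ orderOf x := h ▸ orderOf_map_dvd C.π x
  have := C.order_mem x
  simp only [Set.mem_insert_iff, Set.mem_singleton_iff] at this
  rcases this with h | h | h | h | h <;> rw [h] at d ⊢ <;> first | rfl | (exfalso; revert d; decide)

theorem order_five {x : G} (h : orderOf (C.π x) = 5) : orderOf x = 5 := by
  have d : 5 ∣ orderOf x := h ▸ orderOf_map_dvd C.π x
  have := C.order_mem x
  simp only [Set.mem_insert_iff, Set.mem_singleton_iff] at this
  rcases this with h | h | h | h | h <;> rw [h] at d ⊢ <;> first | rfl | (exfalso; revert d; decide)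

theorem conj_mem {n : G} (hn : n ∈ N) (g : G) : g * n * g⁻¹ ∈ N := C.nrm.conj_mem n hn g

theorem fpf {y n : G} (hy : orderOf y = 3) (hn : n ∈ N) (hc : n * y = y * n) : n = 1 := by
  by_contra h1
  have hn2 : orderOf n = 2 := orderOf_eq_prime (by rw [sq]; exact C.exp2 n hn) h1
  have h6 : orderOf (n * y) = 6 := by
    have hc' : Commute n y := hc
    rw [hc'.orderOf_mul_eq_mul_orderOf_of_coprime (by rw [hn2, hy]; norm_num), hn2, hy]
  have := C.order_mem (n * y)
  rw [h6] at this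
  simp at this

theorem sum3 {y n : G} (hy : orderOf y = 3) (hn : n ∈ N) :
    n * (y * n * y⁻¹) * (y * y * n * y⁻¹ * y⁻¹) = 1 := by
  have hy3 : y * y * y = 1 := by
    have := pow_orderOf_eq_one y
    rw [hy] at this
    simpa [pow_succ, mul_assoc] using this
  have h1 : y * n * y⁻¹ ∈ N := C.conj_mem hn y
  have h2 : y * y * n * y⁻¹ * y⁻¹ ∈ N := by
    have := C.conj_mem h1 y
    convert this using 1
    group
  have hz : n * (y * n * y⁻¹) * (y * y * n * y⁻¹ * y⁻¹) ∈ N := N.mul_mem (N.mul_mem hn h1) h2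
  apply C.fpf hy hz
  have h3 : y * (y * y * n * y⁻¹ * y⁻¹) * y⁻¹ = n := by
    calc y * (y * y * n * y⁻¹ * y⁻¹) * y⁻¹ = (y * y * y) * n * (y * y * y)⁻¹ := by group
      _ = n := by rw [hy3]; group
  have h4 : y * (n * (y * n * y⁻¹) * (y * y * n * y⁻¹ * y⁻¹)) * y⁻¹ =
      (y * n * y⁻¹) * (y * y * n * y⁻¹ * y⁻¹) * n := by
    calc y * (n * (y * n * y⁻¹) * (y * y * n * y⁻¹ * y⁻¹)) * y⁻¹
        = (y * n * y⁻¹) * (y * (y * n * y⁻¹) * y⁻¹) * (y * (y * y * n * y⁻¹ * y⁻¹) * y⁻¹) := by group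
      _ = (y * n * y⁻¹) * (y * y * n * y⁻¹ * y⁻¹) * n := by
        rw [h3]; congr 2; group
  have h5 : (y * n * y⁻¹) * (y * y * n * y⁻¹ * y⁻¹) * n = n * (y * n * y⁻¹) * (y * y * n * y⁻¹ * y⁻¹) := by
    rw [C.comm _ (N.mul_mem h1 h2) n hn]
    exact (mul_assoc _ _ _).symm
  rw [h5] at h4
  have := congrArg (· * y) h4
  simpa using this.symm

/-- An involution above `sb`. -/
theorem exists_invol_lift [Finite G] : ∃ t : G, t * t = 1 ∧ C.π t = sb := by
  obtain ⟨t₀, ht₀⟩ := C.surj sb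
  obtain ⟨c, hc⟩ := C.surj cb
  have hcord : orderOf c = 3 := by
    apply C.order_three
    rw [hc]
    exact orderOf_eq_prime cb_cube cb_ne
  set d := t₀ * c * t₀⁻¹ with hd
  have hπd : C.π d = cb⁻¹ := by
    rw [hd, map_mul, map_mul, map_inv, ht₀, hc, sb_cb]
  have hm : d * c ∈ N := by
    rw [← C.ker, map_mul, hπd, hc, inv_mul_cancel]
  have hθmem : ∀ n : N, (n : G) * (c⁻¹ * n * c) ∈ N := by
    intro n
    refine N.mul_mem n.2 ?_
    have := C.conj_mem n.2 c⁻¹
    simpa using this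
  let θ : N → N := fun n => ⟨(n : G) * (c⁻¹ * n * c), hθmem n⟩
  have hcmem : ∀ {n : G}, n ∈ N → c⁻¹ * n * c ∈ N := by
    intro n hn
    have := C.conj_mem hn c⁻¹
    simpa using this
  have hθ : Function.Injective θ := by
    intro a b hab
    have hab' : (a : G) * (c⁻¹ * a * c) = b * (c⁻¹ * b * c) := congrArg Subtype.val hab
    set n : G := a * b with hn
    have hnN : n ∈ N := N.mul_mem a.2 b.2
    have h1 : n * (c⁻¹ * n * c) = 1 := by
      have e1 : n * (c⁻¹ * n * c) = ((a : G) * (c⁻¹ * a * c)) * ((b : G) * (c⁻¹ * b * c)) := by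
        have e2 : c⁻¹ * n * c = (c⁻¹ * a * c) * (c⁻¹ * b * c) := by rw [hn]; group
        rw [e2, hn]
        have e3 := C.comm (b : G) b.2 _ (hcmem a.2)
        calc (a : G) * b * ((c⁻¹ * a * c) * (c⁻¹ * b * c))
            = a * (b * (c⁻¹ * a * c)) * (c⁻¹ * b * c) := by group
          _ = a * ((c⁻¹ * a * c) * b) * (c⁻¹ * b * c) := by rw [e3]
          _ = _ := by group
      rw [e1, hab']
      exact C.exp2 _ (N.mul_mem b.2 (hcmem b.2))
    have h2 : c⁻¹ * n * c = n := by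
      have h3 := eq_inv_of_mul_eq_one_right h1
      rw [h3]
      exact (eq_inv_of_mul_eq_one_left (C.exp2 n hnN)).symm
    have h3 : n * c = c * n := by
      have := congrArg (c * ·) h2
      simpa [mul_assoc] using this
    have h4 : n = 1 := C.fpf hcord hnN h3
    have h5 : (a : G) * b = b * b := by rw [← hn, h4, C.exp2 _ b.2]
    exact Subtype.ext (mul_right_cancel h5)
  obtain ⟨e, he⟩ := (Finite.injective_iff_surjective.mp hθ) ⟨d * c, hm⟩
  have he' : (e : G) * (c⁻¹ * e * c) = d * c := congrArg Subtype.val he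
  set n : G := e * t₀ with hn
  have hee : (e : G) * e = 1 := C.exp2 _ e.2
  have hπn : C.π n = sb := by
    rw [hn, map_mul, (C.ker _).mpr e.2, one_mul, ht₀]
  have hconj : n * c * n⁻¹ = c⁻¹ := by
    have h1 : d = (e : G) * (c⁻¹ * e * c) * c⁻¹ := by rw [he']; group
    calc n * c * n⁻¹ = e * d * (e : G)⁻¹ := by rw [hn, hd]; group
      _ = (e * e) * (c⁻¹ * e * c) * c⁻¹ * (e : G)⁻¹ := by rw [h1]; group
      _ = c⁻¹ := by rw [hee]; group
  refine ⟨n, ?_, hπn⟩
  apply C.fpf hcord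
  · rw [← C.ker, map_mul, hπn, sb_sq]
  · have h1 : n * c = c⁻¹ * n := by
      have := congrArg (· * n) hconj
      simpa using this
    have h2 : n * c⁻¹ = c * n := by
      have h3 : (n * c⁻¹ * n⁻¹) = c := by
        have : n * c⁻¹ * n⁻¹ = (n * c * n⁻¹)⁻¹ := by group
        rw [this, hconj, inv_inv]
      have := congrArg (· * n) h3
      simpa using this
    calc n * n * c = n * (n * c) := by group
      _ = n * (c⁻¹ * n) := by rw [h1]
      _ = (n * c⁻¹) * n := by group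
      _ = c * n * n := by rw [h2]
      _ = c * (n * n) := by group

theorem exists_psi [Finite G] : ∃ ψ : S →* G, Function.Bijective (fun s => C.π (ψ s)) := by
  haveI : Fact (Nat.Prime 5) := ⟨by norm_num⟩
  obtain ⟨t, ht, hπt⟩ := C.exists_invol_lift
  obtain ⟨b, hπb⟩ := C.surj bb
  have hb3 : orderOf b = 3 := by
    apply C.order_three
    rw [hπb]
    exact orderOf_eq_prime bb_cube bb_ne
  have hbbb : b * b * b = 1 := by
    have := pow_orderOf_eq_one b
    rw [hb3] at this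
    simpa [pow_succ, mul_assoc] using this
  have htb : orderOf (t * b) = 5 := by
    apply C.order_five
    rw [map_mul, hπt, hπb]
    exact orderOf_eq_prime sbbb_five sbbb_ne
  have htb5 : (t * b) ^ 5 = 1 := by
    rw [← htb]; exact pow_orderOf_eq_one _
  obtain ⟨ψ, hψs, hψb⟩ := exists_hom ht hbbb htb5
  refine ⟨ψ, ?_⟩
  let χ : S →* A5 := C.π.comp ψ
  have hχs : χ s0 = sb := by simp [χ, hψs, hπt]
  have hχb : χ b0 = bb := by simp [χ, hψb, hπb]
  have hsurj : Function.Surjective χ := by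
    rw [← MonoidHom.range_eq_top]
    set R := χ.range with hR
    have hsR : sb ∈ R := ⟨s0, hχs⟩
    have hbR : bb ∈ R := ⟨b0, hχb⟩
    have d2 : 2 ∣ Nat.card R := by
      have h := Subgroup.orderOf_dvd_natCard R hsR
      rwa [orderOf_eq_prime (by rw [sq]; exact sb_sq) sb_ne] at h
    have d3 : 3 ∣ Nat.card R := by
      have h := Subgroup.orderOf_dvd_natCard R hbR
      rwa [orderOf_eq_prime bb_cube bb_ne] at h
    have d5 : 5 ∣ Nat.card R := by
      have h := Subgroup.orderOf_dvd_natCard R (R.mul_mem hsR hbR)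
      rwa [orderOf_eq_prime sbbb_five sbbb_ne] at h
    have hdvd : Nat.card R ∣ 60 := by
      rw [← card_A5]; exact Subgroup.card_subgroup_dvd_card R
    have d30 : 30 ∣ Nat.card R := by
      have h1 : 6 ∣ Nat.card R := Nat.Coprime.mul_dvd_of_dvd_of_dvd (by norm_num) d2 d3
      exact Nat.Coprime.mul_dvd_of_dvd_of_dvd (by norm_num) h1 d5
    obtain ⟨k, hk⟩ := d30
    have hk2 : k = 1 ∨ k = 2 := by
      obtain ⟨l, hl⟩ := hdvd
      rw [hk] at hl
      have h1 : k * l = 2 := Nat.eq_of_mul_eq_mul_left (by norm_num : 0 < 30) (by rw [← mul_assoc, ← hl])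
      have h2 : k ∣ 2 := ⟨l, h1.symm⟩
      have := (Nat.dvd_prime Nat.prime_two).mp h2
      exact this
    rcases hk2 with rfl | rfl
    · exfalso
      have hidx : R.index = 2 := by
        have := Subgroup.card_mul_index R
        rw [card_A5, hk] at this
        omega
      haveI hnorm : R.Normal := Subgroup.normal_of_index_eq_two hidx
      haveI : IsSimpleGroup A5 := alternatingGroup.isSimpleGroup (by simp)
      rcases hnorm.eq_bot_or_eq_top with h | h
      · rw [h, Subgroup.card_bot] at hk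
        omega
      · rw [h, Subgroup.card_top, card_A5] at hk
        omega
    · apply Subgroup.eq_top_of_card_eq
      rw [card_A5, hk]
  have hcard : Nat.card S = Nat.card A5 := by
    rw [card_A5, Nat.card_eq_fintype_card, card_S]
  exact hsurj.bijective_of_nat_card_le hcard.le

section psi

variable (ψ : S →* G) (hψ : Function.Bijective (fun s => C.π (ψ s)))
include hψ

theorem psi_inj : Function.Injective ψ := fun a b h => hψ.1 (by simp [h])

theorem order_psi {t : S} (h3 : t * t * t = 1) (h1 : t ≠ 1) : orderOf (ψ t) = 3 := by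
  apply orderOf_eq_prime
  · rw [pow_three, ← mul_assoc, ← map_mul, ← map_mul, h3, map_one]
  · intro h
    exact h1 (C.psi_inj ψ hψ (by simpa using h))

theorem decomp (g : G) : ∃ n ∈ N, ∃ s : S, g = n * ψ s := by
  obtain ⟨s, hs⟩ := hψ.2 (C.π g)
  refine ⟨g * (ψ s)⁻¹, ?_, s, by group⟩
  rw [← C.ker, map_mul, map_inv, ← hs]
  simp

theorem exists_order_four {Q : Type*} [Group Q] (f : G →* Q) {R : Subgroup G} (hf : ∀ g, f g = 1 ↔ g ∈ R)
    (hle : R ≤ N) {n₀ : G} (hn₀ : n₀ ∈ N) (hn₀R : n₀ ∉ R) : ∃ x : Q, orderOf x = 4 := by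
  obtain ⟨i1, i2, hi1, hi2, hb⟩ : ∃ i1 i2 : S, i1 * i1 = 1 ∧ i2 * i2 = 1 ∧ i1 * i2 = b0 := by decide +kernel
  have hsq : ∀ {n : G}, n ∈ N → f n * f n = 1 := by
    intro n hn
    rw [← map_mul, C.exp2 n hn, map_one]
  have key : ∃ n ∈ N, ∃ t : G, t * t = 1 ∧ f (t * n * t⁻¹) ≠ f n := by
    by_contra hcon
    push Not at hcon
    have h1 : ∀ n ∈ N, f (ψ i1 * n * (ψ i1)⁻¹) = f n := fun n hn =>
      hcon n hn _ (by rw [← map_mul, hi1, map_one])
    have h2 : ∀ n ∈ N, f (ψ i2 * n * (ψ i2)⁻¹) = f n := fun n hn =>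
      hcon n hn _ (by rw [← map_mul, hi2, map_one])
    have hy : ∀ n ∈ N, f (ψ b0 * n * (ψ b0)⁻¹) = f n := by
      intro n hn
      have e : ψ b0 * n * (ψ b0)⁻¹ = ψ i1 * (ψ i2 * n * (ψ i2)⁻¹) * (ψ i1)⁻¹ := by
        rw [← hb, map_mul]; group
      rw [e, h1 _ (C.conj_mem hn _), h2 n hn]
    have hord := C.order_psi ψ hψ b0_cube (by decide +kernel)
    have h3 := C.sum3 hord hn₀
    have h4 : f (ψ b0 * ψ b0 * n₀ * (ψ b0)⁻¹ * (ψ b0)⁻¹) = f n₀ := by
      have e : ψ b0 * ψ b0 * n₀ * (ψ b0)⁻¹ * (ψ b0)⁻¹ = ψ b0 * (ψ b0 * n₀ * (ψ b0)⁻¹) * (ψ b0)⁻¹ := by group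
      rw [e, hy _ (C.conj_mem hn₀ _), hy n₀ hn₀]
    have h5 := congrArg f h3
    rw [map_mul, map_mul, hy n₀ hn₀, h4, map_one, hsq hn₀, one_mul] at h5
    exact hn₀R ((hf n₀).mp h5)
  obtain ⟨n, hn, t, ht, hne⟩ := key
  have htinv : t⁻¹ = t := inv_eq_of_mul_eq_one_left ht
  set m := t * n * t⁻¹ with hm
  have hmN : m ∈ N := C.conj_mem hn t
  have hx2 : (n * t) * (n * t) = n * m := by
    rw [hm, htinv]
    group
  have h1 : f n * f m ≠ 1 := by
    intro h
    have h2 : f m = (f n)⁻¹ := eq_inv_of_mul_eq_one_right h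
    have h3 : (f n)⁻¹ = f n := inv_eq_of_mul_eq_one_left (hsq hn)
    exact hne (by rw [h2, h3])
  have hA : ¬ (f (n * t)) ^ 2 ^ 1 = 1 := by
    rw [pow_one, sq, ← map_mul, hx2, map_mul]
    exact h1
  have hB : (f (n * t)) ^ 2 ^ (1 + 1) = 1 := by
    have e : (f (n * t)) ^ 2 ^ (1 + 1) = f ((n * t) * (n * t)) * f ((n * t) * (n * t)) := by
      rw [← map_mul, show (2 : ℕ) ^ (1 + 1) = 4 by norm_num, ← map_pow]
      congr 1
      simp only [pow_succ, pow_zero, one_mul, mul_assoc]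
    rw [e, hx2, ← map_mul, C.exp2 _ (N.mul_mem hn hmN), map_one]
  exact ⟨f (n * t), by simpa using orderOf_eq_prime_pow hA hB⟩

theorem spec_quot {Q : Type*} [Group Q] (f : G →* Q) (hsurj : Function.Surjective f) {R : Subgroup G}
    (hf : ∀ g, f g = 1 ↔ g ∈ R) (hle : R ≤ N) {n₀ : G} (hn₀ : n₀ ∈ N) (hn₀R : n₀ ∉ R) :
    Set.range (orderOf : Q → ℕ) = ({1, 2, 3, 4, 5} : Set ℕ) := by
  haveI : Fact (Nat.Prime 5) := ⟨by norm_num⟩
  have hne : ∀ s : S, s ≠ 1 → f (ψ s) ≠ 1 := by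
    intro s hs h
    apply hs
    have h1 : ψ s ∈ N := hle ((hf _).mp h)
    apply hψ.1
    show C.π (ψ s) = C.π (ψ 1)
    rw [(C.ker _).mpr h1, map_one, map_one]
  apply Set.eq_of_subset_of_subset
  · rintro _ ⟨q, rfl⟩
    obtain ⟨g, rfl⟩ := hsurj q
    have d : orderOf (f g) ∣ orderOf g := orderOf_map_dvd f g
    have hg := C.order_mem g
    have hpos : 0 < orderOf g := by
      simp only [Set.mem_insert_iff, Set.mem_singleton_iff] at hg
      omega
    have h1 := Nat.le_of_dvd hpos d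
    have h2 : 0 < orderOf (f g) := Nat.pos_of_dvd_of_pos d hpos
    have h3 : orderOf g ≤ 5 := by
      simp only [Set.mem_insert_iff, Set.mem_singleton_iff] at hg
      omega
    simp only [Set.mem_insert_iff, Set.mem_singleton_iff]
    omega
  · intro k hk
    simp only [Set.mem_insert_iff, Set.mem_singleton_iff] at hk
    rcases hk with rfl | rfl | rfl | rfl | rfl
    · exact ⟨1, orderOf_one⟩
    · refine ⟨f (ψ s0), orderOf_eq_prime ?_ (hne s0 (by decide +kernel))⟩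
      rw [← map_pow, ← map_pow, sq, s0_sq, map_one, map_one]
    · refine ⟨f (ψ b0), orderOf_eq_prime ?_ (hne b0 (by decide +kernel))⟩
      rw [← map_pow, ← map_pow, pow_three, ← mul_assoc, b0_cube, map_one, map_one]
    · exact C.exists_order_four ψ hψ f hf hle hn₀ hn₀R
    · refine ⟨f (ψ (s0 * b0)), orderOf_eq_prime ?_ (hne _ (by decide +kernel))⟩
      rw [← map_pow, ← map_pow, s0b0_five, map_one, map_one]

theorem normal_eq (hc : ∀ (H : Subgroup G) (N' : Subgroup ↥H) [N'.Normal], (H ≠ ⊤ ∨ N' ≠ ⊥) →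
      Set.range (orderOf : (↥H ⧸ N') → ℕ) ≠ ({1, 2, 3, 4, 5} : Set ℕ))
    {R : Subgroup G} (hR : R.Normal) (hle : R ≤ N) (hne : R ≠ N) : R = ⊥ := by
  by_contra hbot
  obtain ⟨n₀, hn₀, hn₀R⟩ := SetLike.exists_of_lt (lt_of_le_of_ne hle hne)
  obtain ⟨r, hr, hr1⟩ := (Subgroup.ne_bot_iff_exists_ne_one.mp hbot |>.imp fun x hx => hx) |> fun ⟨x, hx⟩ =>
    (⟨x.1, x.2, fun h => hx (Subtype.ext h)⟩ : ∃ r : G, r ∈ R ∧ r ≠ 1)
  let R' : Subgroup ↥(⊤ : Subgroup G) := R.subgroupOf ⊤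
  haveI hR' : R'.Normal := hR.subgroupOf ⊤
  let f : G →* (↥(⊤ : Subgroup G) ⧸ R') :=
    (QuotientGroup.mk' R').comp (Subgroup.topEquiv (G := G)).symm.toMonoidHom
  have hf : ∀ g, f g = 1 ↔ g ∈ R := by
    intro g
    show ((Subgroup.topEquiv (G := G)).symm g : ↥(⊤ : Subgroup G) ⧸ R') = 1 ↔ _
    rw [QuotientGroup.eq_one_iff, Subgroup.mem_subgroupOf]
    rfl
  have hsurj : Function.Surjective f := by
    intro q
    obtain ⟨x, rfl⟩ := QuotientGroup.mk'_surjective R' q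
    exact ⟨x.1, rfl⟩
  refine hc ⊤ R' (Or.inr ?_) (C.spec_quot ψ hψ f hsurj hf hle hn₀ hn₀R)
  intro h
  apply hr1
  have h1 : (⟨r, trivial⟩ : ↥(⊤ : Subgroup G)) ∈ R' := by
    rw [Subgroup.mem_subgroupOf]; exact hr
  rw [h, Subgroup.mem_bot] at h1
  exact congrArg Subtype.val h1

end psi

theorem exists_ne_one : ∃ n ∈ N, n ≠ 1 := by
  have h4 : (4 : ℕ) ∈ Set.range (orderOf : G → ℕ) := by
    rw [C.spec]; simp
  obtain ⟨x, hx⟩ := h4
  refine ⟨x ^ 2, ?_, ?_⟩
  · rw [← C.ker, map_pow]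
    apply a5_four
    rw [← map_pow, show (4 : ℕ) = orderOf x from hx.symm, pow_orderOf_eq_one, map_one]
  · apply pow_ne_one_of_lt_orderOf (by norm_num)
    rw [hx]; norm_num

theorem fix_step {t : G} (ht : t * t = 1) {a : G} (ha : a ∈ N) (ha1 : a ≠ 1) :
    ∃ b ∈ N, b ≠ 1 ∧ t * b * t⁻¹ = b ∧ ∀ u : G, u * t = t * u → u * a * u⁻¹ = a → u * b * u⁻¹ = b := by
  have htinv : t⁻¹ = t := inv_eq_of_mul_eq_one_left ht
  have h1 : t * a * t⁻¹ ∈ N := C.conj_mem ha t
  by_cases h : a * (t * a * t⁻¹) = 1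
  · have h2 : t * a * t⁻¹ = a := by
      have h3 := eq_inv_of_mul_eq_one_right h
      rw [h3]
      exact (eq_inv_of_mul_eq_one_left (C.exp2 a ha)).symm
    exact ⟨a, ha, ha1, h2, fun u _ hu => hu⟩
  · refine ⟨a * (t * a * t⁻¹), N.mul_mem ha h1, h, ?_, ?_⟩
    · have e : t * (a * (t * a * t⁻¹)) * t⁻¹ = (t * a * t⁻¹) * a := by
        have h9 : (t * t) * a * (t⁻¹ * t⁻¹) = a := by
          rw [ht, htinv, ht]; simp
        calc t * (a * (t * a * t⁻¹)) * t⁻¹ = (t * a * t⁻¹) * ((t * t) * a * (t⁻¹ * t⁻¹)) := by group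
          _ = (t * a * t⁻¹) * a := by rw [h9]
      rw [e]
      exact C.comm _ h1 _ ha
    · intro u hut hu
      have hut' : u * t⁻¹ = t⁻¹ * u := by rw [htinv]; exact hut
      have e1 : u * (t * a * t⁻¹) * u⁻¹ = t * (u * a * u⁻¹) * t⁻¹ := by
        calc u * (t * a * t⁻¹) * u⁻¹ = (u * t) * a * (u * t)⁻¹ := by group
          _ = (t * u) * a * (t * u)⁻¹ := by rw [hut]
          _ = t * (u * a * u⁻¹) * t⁻¹ := by group
      calc u * (a * (t * a * t⁻¹)) * u⁻¹ = (u * a * u⁻¹) * (u * (t * a * t⁻¹) * u⁻¹) := by group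
        _ = a * (t * a * t⁻¹) := by rw [e1, hu]

end Ctx

/-! ### The natural module -/

/-- The vector action. -/
def act (g : S) (p : K4 × K4) : K4 × K4 :=
  (g.1 0 0 * p.1 + g.1 0 1 * p.2, g.1 1 0 * p.1 + g.1 1 1 * p.2)

theorem act_mul (g h : S) (p : K4 × K4) : act (g * h) p = act g (act h p) := by
  simp only [act, Matrix.SpecialLinearGroup.coe_mul, Matrix.mul_apply, Fin.sum_univ_two]
  ext <;> simp only <;> ring

theorem act_one (p : K4 × K4) : act 1 p = p := by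
  simp [act]

/-- The base vector. -/
def e1 : K4 × K4 := (1, 0)

/-- A transvection. -/
def v1 : S := mk 1 1 0 1 (by decide +kernel)
/-- A transvection. -/
def v2 : S := mk 1 w1 0 1 (by decide +kernel)

theorem v1_sq : v1 * v1 = 1 := by decide +kernel
theorem v2_sq : v2 * v2 = 1 := by decide +kernel
theorem v12 : v1 * v2 = v2 * v1 := by decide +kernel

theorem stab : ∀ h : S, act h e1 = e1 → h = 1 ∨ h = v1 ∨ h = v2 ∨ h = v1 * v2 := by decide +kernel
theorem rep : ∀ p : K4 × K4, p ≠ 0 → ∃ g : S, act g e1 = p := by decide +kernel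
set_option synthInstance.maxHeartbeats 400000 in
set_option synthInstance.maxSize 1000 in
theorem add3 : ∀ u v : K4 × K4, u ≠ 0 → v ≠ 0 → u ≠ v →
    ∃ t : S, t * t * t = 1 ∧ t ≠ 1 ∧ act t u = v ∧ act t v = u + v := by decide +kernel

theorem add_self' (u : K4 × K4) : u + u = 0 := by
  ext <;> exact K4.add_self _

theorem act_zero (g : S) : act g 0 = 0 := by
  simp [act]

theorem act_ne_zero (g : S) {p : K4 × K4} (hp : p ≠ 0) : act g p ≠ 0 := by
  intro h
  apply hp
  have h1 : act g⁻¹ (act g p) = p := by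
    rw [← act_mul, inv_mul_cancel, act_one]
  rw [← h1, h, act_zero]

namespace Ctx

variable {G : Type*} [Group G] {N : Subgroup G} (C : Ctx G N)
include C

theorem exists_fixed (ψ : S →* G) :
    ∃ e ∈ N, e ≠ 1 ∧ ∀ h : S, act h e1 = e1 → ψ h * e * (ψ h)⁻¹ = e := by
  obtain ⟨n₀, hn₀, hn₀1⟩ := C.exists_ne_one
  have ht1 : ψ v1 * ψ v1 = 1 := by rw [← map_mul, v1_sq, map_one]
  have ht2 : ψ v2 * ψ v2 = 1 := by rw [← map_mul, v2_sq, map_one]
  have hc : ψ v1 * ψ v2 = ψ v2 * ψ v1 := by rw [← map_mul, ← map_mul, v12]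
  obtain ⟨a, ha, ha1, hfa, -⟩ := C.fix_step ht1 hn₀ hn₀1
  obtain ⟨b, hb, hb1, hfb, hu⟩ := C.fix_step ht2 ha ha1
  have hfb' : ψ v1 * b * (ψ v1)⁻¹ = b := hu _ hc hfa
  refine ⟨b, hb, hb1, ?_⟩
  intro h hh
  rcases stab h hh with rfl | rfl | rfl | rfl
  · simp
  · exact hfb'
  · exact hfb
  · rw [map_mul]
    calc ψ v1 * ψ v2 * b * (ψ v1 * ψ v2)⁻¹ = ψ v1 * (ψ v2 * b * (ψ v2)⁻¹) * (ψ v1)⁻¹ := by group
      _ = b := by rw [hfb, hfb']

theorem exists_iota (ψ : S →* G) (hψ : Function.Bijective (fun s => C.π (ψ s))) {e : G} (he : e ∈ N) (he1 : e ≠ 1)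
    (hfix : ∀ h : S, act h e1 = e1 → ψ h * e * (ψ h)⁻¹ = e) :
    ∃ ι : K4 × K4 → G, ι 0 = 1 ∧ (∀ p, ι p ∈ N) ∧ (∀ p, p ≠ 0 → ι p ≠ 1) ∧
      (∀ g p, ψ g * ι p * (ψ g)⁻¹ = ι (act g p)) ∧ (∀ u v, ι (u + v) = ι u * ι v) := by
  classical
  choose r hr using rep
  let ι : K4 × K4 → G := fun p => if h : p = 0 then 1 else ψ (r p h) * e * (ψ (r p h))⁻¹
  have hι0 : ι 0 = 1 := by simp [ι]
  have hιp : ∀ p (h : p ≠ 0), ι p = ψ (r p h) * e * (ψ (r p h))⁻¹ := by
    intro p h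
    simp [ι, h]
  have hmem : ∀ p, ι p ∈ N := by
    intro p
    by_cases h : p = 0
    · rw [h, hι0]; exact N.one_mem
    · rw [hιp p h]; exact C.conj_mem he _
  have hne : ∀ p, p ≠ 0 → ι p ≠ 1 := by
    intro p h h1
    rw [hιp p h] at h1
    apply he1
    have : ψ (r p h) * e * (ψ (r p h))⁻¹ = ψ (r p h) * 1 * (ψ (r p h))⁻¹ := by rw [h1]; group
    simpa using this
  have hequi : ∀ g p, ψ g * ι p * (ψ g)⁻¹ = ι (act g p) := by
    intro g p
    by_cases h : p = 0
    · rw [h, hι0, act_zero, hι0]; group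
    · have hq := act_ne_zero g h
      set q := act g p with hqdef
      rw [hιp p h, hιp q hq]
      set h' : S := (r q hq)⁻¹ * g * r p h with hh'
      have h9 : act (r q hq)⁻¹ q = e1 := by
        have h10 := congrArg (act (r q hq)⁻¹) (hr q hq)
        rw [← act_mul, inv_mul_cancel, act_one] at h10
        exact h10.symm
      have hst : act h' e1 = e1 := by
        rw [hh', act_mul, act_mul, hr p h, ← hqdef, h9]
      have h1 := hfix h' hst
      have h2 : g * r p h = r q hq * h' := by rw [hh']; group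
      calc ψ g * (ψ (r p h) * e * (ψ (r p h))⁻¹) * (ψ g)⁻¹
          = ψ (g * r p h) * e * (ψ (g * r p h))⁻¹ := by rw [map_mul]; group
        _ = ψ (r q hq) * (ψ h' * e * (ψ h')⁻¹) * (ψ (r q hq))⁻¹ := by rw [h2, map_mul]; group
        _ = ψ (r q hq) * e * (ψ (r q hq))⁻¹ := by rw [h1]
  have hadd : ∀ u v, ι (u + v) = ι u * ι v := by
    intro u v
    by_cases hu : u = 0
    · rw [hu, zero_add, hι0, one_mul]
    by_cases hv : v = 0
    · rw [hv, add_zero, hι0, mul_one]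
    by_cases huv : u = v
    · rw [huv, add_self', hι0, C.exp2 _ (hmem v)]
    obtain ⟨t, ht3, ht1, htu, htv⟩ := add3 u v hu hv huv
    have hord := C.order_psi ψ hψ ht3 ht1
    have h := C.sum3 hord (hmem u)
    have e2 : ψ t * ψ t * ι u * (ψ t)⁻¹ * (ψ t)⁻¹ = ψ t * (ψ t * ι u * (ψ t)⁻¹) * (ψ t)⁻¹ := by group
    rw [e2, hequi t u, htu, hequi t v, htv] at h
    have h3 : ι (u + v) = (ι u * ι v)⁻¹ := eq_inv_of_mul_eq_one_right h
    rw [h3]
    exact (eq_inv_of_mul_eq_one_left (C.exp2 _ (N.mul_mem (hmem u) (hmem v)))).symm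
  exact ⟨ι, hι0, hmem, hne, hequi, hadd⟩

end Ctx

/-! ### The affine group -/

/-- `SL₃(F₄)`. -/
abbrev SL3 := Matrix.SpecialLinearGroup (Fin 3) K4

/-- The generating set. -/
def Aset : Set SL3 := {M : Matrix.SpecialLinearGroup (Fin 3) K4 |
  (M : Matrix (Fin 3) (Fin 3) K4) 2 0 = 0 ∧ (M : Matrix (Fin 3) (Fin 3) K4) 2 1 = 0 ∧
    (M : Matrix (Fin 3) (Fin 3) K4) 2 2 = 1}

/-- The affine group. -/
abbrev AS := Subgroup.closure Aset

theorem mem_row {M : SL3} (h : M ∈ AS) : M.1 2 0 = 0 ∧ M.1 2 1 = 0 ∧ M.1 2 2 = 1 := by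
  induction h using Subgroup.closure_induction with
  | mem x hx => exact hx
  | one => simp
  | mul x y _ _ hx hy =>
    obtain ⟨a1, a2, a3⟩ := hx
    obtain ⟨b1, b2, b3⟩ := hy
    simp only [Matrix.SpecialLinearGroup.coe_mul, Matrix.mul_apply, Fin.sum_univ_three, a1, a2, a3, b1, b2, b3]
    simp
  | inv x _ hx =>
    obtain ⟨a1, a2, a3⟩ := hx
    have h1 : (x * x⁻¹).1 = 1 := by rw [mul_inv_cancel]; rfl
    have hj : ∀ j, (x * x⁻¹).1 2 j = (x⁻¹).1 2 j := by
      intro j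
      simp only [Matrix.SpecialLinearGroup.coe_mul, Matrix.mul_apply, Fin.sum_univ_three, a1, a2, a3]
      simp
    refine ⟨?_, ?_, ?_⟩
    · rw [← hj, h1]; simp
    · rw [← hj, h1]; simp
    · rw [← hj, h1]; simp

theorem det_top (M : AS) : M.1.1 0 0 * M.1.1 1 1 + M.1.1 0 1 * M.1.1 1 0 = 1 := by
  obtain ⟨a1, a2, a3⟩ := mem_row M.2
  have h := M.1.2
  rw [Matrix.det_fin_three, a1, a2, a3] at h
  have hneg : ∀ x : K4, -x = x := fun x => rfl
  simp only [sub_eq_add_neg, hneg] at h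
  simp only [mul_zero, zero_mul, mul_one, add_zero, zero_add] at h
  linear_combination h

/-- The linear part. -/
def prM (M : AS) : S := mk (M.1.1 0 0) (M.1.1 0 1) (M.1.1 1 0) (M.1.1 1 1) (det_top M)

/-- The translation part. -/
def vec (M : AS) : K4 × K4 := (M.1.1 0 2, M.1.1 1 2)

theorem prM_mul (x y : AS) : prM (x * y) = prM x * prM y := by
  obtain ⟨a1, a2, a3⟩ := mem_row x.2
  obtain ⟨b1, b2, b3⟩ := mem_row y.2
  apply Subtype.ext
  show (prM (x * y)).1 = (prM x).1 * (prM y).1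
  ext i j
  fin_cases i <;> fin_cases j <;>
    simp [prM, mk, Matrix.mul_apply, Fin.sum_univ_three, Fin.sum_univ_two, a1, a2, a3, b1, b2, b3]

theorem vec_mul (x y : AS) : vec (x * y) = act (prM x) (vec y) + vec x := by
  obtain ⟨a1, a2, a3⟩ := mem_row x.2
  obtain ⟨b1, b2, b3⟩ := mem_row y.2
  ext
  · simp [vec, act, prM, mk, Matrix.mul_apply, Fin.sum_univ_three, b3]
  · simp [vec, act, prM, mk, Matrix.mul_apply, Fin.sum_univ_three, b3]

/-- Building a matrix. -/
def mkAS (s : S) (p : K4 × K4) : AS :=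
  ⟨⟨!![s.1 0 0, s.1 0 1, p.1; s.1 1 0, s.1 1 1, p.2; 0, 0, 1], by
    rw [Matrix.det_fin_three]
    have h := s.2
    rw [Matrix.det_fin_two] at h
    simpa using h⟩,
    Subgroup.subset_closure (show _ ∈ Aset from ⟨rfl, rfl, rfl⟩)⟩

theorem prM_mkAS (s : S) (p : K4 × K4) : prM (mkAS s p) = s := by
  apply Subtype.ext
  ext i j
  fin_cases i <;> fin_cases j <;> simp [prM, mk, mkAS]

theorem vec_mkAS (s : S) (p : K4 × K4) : vec (mkAS s p) = p := by
  ext <;> simp [vec, mkAS]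

theorem AS_ext {x : AS} (h1 : prM x = 1) (h2 : vec x = 0) : x = 1 := by
  obtain ⟨a1, a2, a3⟩ := mem_row x.2
  have h11 : ∀ i j, (prM x).1 i j = (1 : Matrix (Fin 2) (Fin 2) K4) i j := by
    intro i j; rw [h1]; rfl
  have e00 := h11 0 0
  have e01 := h11 0 1
  have e10 := h11 1 0
  have e11 := h11 1 1
  simp [prM, mk] at e00 e01 e10 e11
  have v0 : x.1.1 0 2 = 0 := congrArg Prod.fst h2
  have v1 : x.1.1 1 2 = 0 := congrArg Prod.snd h2
  apply Subtype.ext
  apply Subtype.ext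
  ext i j
  fin_cases i <;> fin_cases j <;> simp [e00, e01, e10, e11, v0, v1, a1, a2, a3]

namespace Ctx

variable {G : Type*} [Group G] {N : Subgroup G} (C : Ctx G N)
include C

/-- The main theorem of this file. -/
theorem main [Finite G] (hc : ∀ (H : Subgroup G) (N' : Subgroup ↥H) [N'.Normal], (H ≠ ⊤ ∨ N' ≠ ⊥) →
      Set.range (orderOf : (↥H ⧸ N') → ℕ) ≠ ({1, 2, 3, 4, 5} : Set ℕ)) :
    Nonempty (G ≃* AS) := by
  obtain ⟨ψ, hψ⟩ := C.exists_psi
  obtain ⟨e, he, he1, hfix⟩ := C.exists_fixed ψ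
  obtain ⟨ι, hι0, hιN, hιne, hequi, hadd⟩ := C.exists_iota ψ hψ he he1 hfix
  -- the image of `ι`
  let R : Subgroup G :=
    { carrier := Set.range ι
      mul_mem' := by
        rintro _ _ ⟨u, rfl⟩ ⟨v, rfl⟩
        exact ⟨u + v, hadd u v⟩
      one_mem' := ⟨0, hι0⟩
      inv_mem' := by
        rintro _ ⟨u, rfl⟩
        exact ⟨u, (inv_eq_of_mul_eq_one_left (C.exp2 _ (hιN u))).symm⟩ }
  have hRle : R ≤ N := by
    rintro _ ⟨u, rfl⟩
    exact hιN u
  have hRn : R.Normal := by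
    constructor
    rintro _ ⟨u, rfl⟩ g
    obtain ⟨n, hn, s, rfl⟩ := C.decomp ψ hψ g
    have e2 : n * ψ s * ι u * (n * ψ s)⁻¹ = n * (ψ s * ι u * (ψ s)⁻¹) * n⁻¹ := by group
    rw [e2, hequi s u, C.comm n hn _ (hιN _)]
    exact ⟨act s u, by group⟩
  have hRN : R = N := by
    by_contra hne
    have hbot := C.normal_eq ψ hψ hc hRn hRle hne
    have h1 : ι e1 ∈ R := ⟨e1, rfl⟩
    rw [hbot, Subgroup.mem_bot] at h1
    exact hιne e1 (by decide +kernel) h1
  -- the map
  let Φ : AS →* G := MonoidHom.mk' (fun M => ι (vec M) * ψ (prM M)) (by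
    intro x y
    rw [prM_mul, vec_mul, add_comm, hadd, ← hequi, map_mul]
    group)
  have hinj : Function.Injective Φ := by
    rw [injective_iff_map_eq_one]
    intro x hx
    have hx' : ι (vec x) * ψ (prM x) = 1 := hx
    have h1 : C.π (ψ (prM x)) = 1 := by
      have h2 := congrArg C.π hx'
      rwa [map_mul, (C.ker _).mpr (hιN _), one_mul, map_one] at h2
    have h3 : prM x = 1 := by
      apply hψ.1
      show C.π (ψ (prM x)) = C.π (ψ 1)
      rw [h1, map_one, map_one]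
    rw [h3, map_one, mul_one] at hx'
    have h4 : vec x = 0 := by
      by_contra h
      exact hιne _ h hx'
    exact AS_ext h3 h4
  have hsurj : Function.Surjective Φ := by
    intro g
    obtain ⟨n, hn, s, rfl⟩ := C.decomp ψ hψ g
    rw [← hRN] at hn
    obtain ⟨p, rfl⟩ := hn
    refine ⟨mkAS s p, ?_⟩
    show ι (vec (mkAS s p)) * ψ (prM (mkAS s p)) = _
    rw [prM_mkAS, vec_mkAS]
  exact ⟨(MulEquiv.ofBijective Φ ⟨hinj, hsurj⟩).symm⟩

end Ctx

/-- The main theorem, with the hypotheses in the form of `S3433`. -/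
theorem of_ext {G : Type*} [Group G] [Finite G]
    (h0 : Set.range (orderOf : G → ℕ) = ({1, 2, 3, 4, 5} : Set ℕ))
    (hc : ∀ (H : Subgroup G) (N' : Subgroup ↥H) [N'.Normal], (H ≠ ⊤ ∨ N' ≠ ⊥) →
      Set.range (orderOf : (↥H ⧸ N') → ℕ) ≠ ({1, 2, 3, 4, 5} : Set ℕ))
    {N : Subgroup G} [hN : N.Normal] (hE : Cfsg.IsElementaryAbelian 2 N)
    (e : G ⧸ N ≃* alternatingGroup (Fin 5)) : Nonempty (G ≃* AS) := by
  have hcomm : ∀ a ∈ N, ∀ b ∈ N, a * b = b * a := by
    intro a ha b hb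
    exact congrArg Subtype.val (hE.1.is_comm.comm (⟨a, ha⟩ : N) ⟨b, hb⟩)
  have hexp : ∀ a ∈ N, a * a = 1 := by
    intro a ha
    rw [← sq]; exact hE.2 a ha
  let π : G →* A5 := e.toMonoidHom.comp (QuotientGroup.mk' N)
  have hsurj : Function.Surjective π := e.surjective.comp (QuotientGroup.mk'_surjective N)
  have hker : ∀ g, π g = 1 ↔ g ∈ N := by
    intro g
    show e (g : G ⧸ N) = 1 ↔ _
    rw [MulEquiv.map_eq_one_iff, QuotientGroup.eq_one_iff]
  exact (Ctx.mk h0 hcomm hexp hN π hsurj hker).main hc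

end Cfsg.Agent.Lib.CritA6
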