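import Mathlib

/-!
# Four-group data on a module over the field with three elements

A group element `b` of order three with `[E,b]` of order nine, cycling the involutions of a
four-group, gives three eigenlines that `b` permutes, and `b` is trivial on the fixed space of the
four-group.
-/

set_option autoImplicit false
set_option linter.unusedSectionVars false
set_option linter.unusedVariables false

namespace Cfsg.Agent.Lib.CubA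

section Basic

variable {G : Type*} [Group G] {E : Type*} [AddCommGroup E] [Module (ZMod 3) E]
variable (ρ : Representation (ZMod 3) G E)

@[simp] theorem act_mul (g h : G) (v : E) : ρ (g * h) v = ρ g (ρ h v) := by
  rw [map_mul, Module.End.mul_apply]

@[simp] theorem act_one (v : E) : ρ 1 v = v := by
  rw [map_one, Module.End.one_apply]

@[simp] theorem act_inv_act (g : G) (v : E) : ρ g⁻¹ (ρ g v) = v := by
  rw [← act_mul, inv_mul_cancel, act_one]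

@[simp] theorem act_act_inv (g : G) (v : E) : ρ g (ρ g⁻¹ v) = v := by
  rw [← act_mul, mul_inv_cancel, act_one]

theorem act_inj (g : G) {v w : E} (h : ρ g v = ρ g w) : v = w := by
  have := congrArg (ρ g⁻¹) h
  simpa using this

omit ρ in
theorem three_add (v : E) : v + v + v = 0 := by
  have h : (3 : ZMod 3) • v = 0 := by
    have : (3 : ZMod 3) = 0 := by decide
    rw [this, zero_smul]
  have h2 : (3 : ZMod 3) = 1 + 1 + 1 := by decide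
  rw [h2, add_smul, add_smul, one_smul] at h
  exact h

omit ρ in
theorem neg_eq_add (v : E) : -v = v + v := by
  have h := three_add v
  rw [neg_eq_iff_add_eq_zero]
  calc v + (v + v) = v + v + v := by abel
    _ = 0 := h

omit ρ in
/-- In characteristic three, `v = -v` forces `v = 0`. -/
theorem eq_zero_of_eq_neg {v : E} (h : v = -v) : v = 0 := by
  have h1 := three_add v
  have h2 : v + v = 0 := by
    nth_rewrite 2 [h]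
    exact add_neg_cancel v
  rw [h2, zero_add] at h1
  exact h1

omit ρ in
theorem eq_of_smul_eq {e : E} (he : e ≠ 0) {a a' : ZMod 3} (h : a • e = a' • e) : a = a' := by
  have h2 : (a - a') • e = 0 := by rw [sub_smul, h, sub_self]
  rcases smul_eq_zero.mp h2 with h3 | h3
  · exact sub_eq_zero.mp h3
  · exact absurd h3 he

theorem zm_eq_zero {a : ZMod 3} (h : -a = a) : a = 0 := by
  revert a; decide

omit ρ in
theorem four_smul_eq (v : E) : v + v + v + v = v := by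
  rw [three_add, zero_add]

end Basic

section FG

variable {G : Type*} [Group G] {E : Type*} [AddCommGroup E] [Module (ZMod 3) E]

/-- Four-group data. -/
structure FG (ρ : Representation (ZMod 3) G E) (b t₁ t₂ t₃ : G) (e₁ e₂ e₃ : E) : Prop where
  t1sq : t₁ * t₁ = 1
  t12 : t₁ * t₂ = t₃
  t23 : t₂ * t₃ = t₁
  t31 : t₃ * t₁ = t₂
  bt1 : b * t₁ * b⁻¹ = t₂
  bt2 : b * t₂ * b⁻¹ = t₃
  bt3 : b * t₃ * b⁻¹ = t₁
  be1 : ρ b e₁ = e₂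
  be2 : ρ b e₂ = e₃
  be3 : ρ b e₃ = e₁
  e1ne : e₁ ≠ 0
  t1e1 : ρ t₁ e₁ = e₁
  t2e1 : ρ t₂ e₁ = -e₁
  span : ∀ v, ∃ (c : E) (a₁ a₂ a₃ : ZMod 3), v = c + a₁ • e₁ + a₂ • e₂ + a₃ • e₃ ∧
    ρ t₁ c = c ∧ ρ t₂ c = c
  bfix : ∀ c, ρ t₁ c = c → ρ t₂ c = c → ρ b c = c

namespace FG

variable {ρ : Representation (ZMod 3) G E} {b t₁ t₂ t₃ : G} {e₁ e₂ e₃ : E}

theorem t2sq (h : FG ρ b t₁ t₂ t₃ e₁ e₂ e₃) : t₂ * t₂ = 1 := by
  rw [← h.bt1]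
  calc b * t₁ * b⁻¹ * (b * t₁ * b⁻¹) = b * (t₁ * t₁) * b⁻¹ := by group
    _ = 1 := by rw [h.t1sq]; group

theorem t3sq (h : FG ρ b t₁ t₂ t₃ e₁ e₂ e₃) : t₃ * t₃ = 1 := by
  rw [← h.bt2]
  calc b * t₂ * b⁻¹ * (b * t₂ * b⁻¹) = b * (t₂ * t₂) * b⁻¹ := by group
    _ = 1 := by rw [h.t2sq]; group

theorem t21 (h : FG ρ b t₁ t₂ t₃ e₁ e₂ e₃) : t₂ * t₁ = t₃ := by
  have h1 : t₂ * t₁ = t₂ * (t₂ * t₃) := by rw [h.t23]
  rw [h1, ← mul_assoc, h.t2sq, one_mul]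

theorem t32 (h : FG ρ b t₁ t₂ t₃ e₁ e₂ e₃) : t₃ * t₂ = t₁ := by
  have h1 : t₃ * t₂ = t₃ * (t₃ * t₁) := by rw [h.t31]
  rw [h1, ← mul_assoc, h.t3sq, one_mul]

theorem t13 (h : FG ρ b t₁ t₂ t₃ e₁ e₂ e₃) : t₁ * t₃ = t₂ := by
  have h1 : t₁ * t₃ = t₁ * (t₁ * t₂) := by rw [h.t12]
  rw [h1, ← mul_assoc, h.t1sq, one_mul]

theorem bt1' (h : FG ρ b t₁ t₂ t₃ e₁ e₂ e₃) (v : E) : ρ b (ρ t₁ v) = ρ t₂ (ρ b v) := by
  rw [← act_mul, ← act_mul, ← h.bt1]; congr 2; group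

theorem bt2' (h : FG ρ b t₁ t₂ t₃ e₁ e₂ e₃) (v : E) : ρ b (ρ t₂ v) = ρ t₃ (ρ b v) := by
  rw [← act_mul, ← act_mul, ← h.bt2]; congr 2; group

theorem bt3' (h : FG ρ b t₁ t₂ t₃ e₁ e₂ e₃) (v : E) : ρ b (ρ t₃ v) = ρ t₁ (ρ b v) := by
  rw [← act_mul, ← act_mul, ← h.bt3]; congr 2; group

theorem t3e1 (h : FG ρ b t₁ t₂ t₃ e₁ e₂ e₃) : ρ t₃ e₁ = -e₁ := by
  rw [← h.t12, act_mul, h.t2e1, map_neg, h.t1e1]

theorem t2e2 (h : FG ρ b t₁ t₂ t₃ e₁ e₂ e₃) : ρ t₂ e₂ = e₂ := by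
  rw [← h.be1, ← h.bt1', h.t1e1]

theorem t3e2 (h : FG ρ b t₁ t₂ t₃ e₁ e₂ e₃) : ρ t₃ e₂ = -e₂ := by
  rw [← h.be1, ← h.bt2', h.t2e1, map_neg]

theorem t1e2 (h : FG ρ b t₁ t₂ t₃ e₁ e₂ e₃) : ρ t₁ e₂ = -e₂ := by
  rw [← h.be1, ← h.bt3', h.t3e1, map_neg]

theorem t3e3 (h : FG ρ b t₁ t₂ t₃ e₁ e₂ e₃) : ρ t₃ e₃ = e₃ := by
  rw [← h.be2, ← h.bt2', h.t2e2]

theorem t1e3 (h : FG ρ b t₁ t₂ t₃ e₁ e₂ e₃) : ρ t₁ e₃ = -e₃ := by
  rw [← h.be2, ← h.bt3', h.t3e2, map_neg]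

theorem t2e3 (h : FG ρ b t₁ t₂ t₃ e₁ e₂ e₃) : ρ t₂ e₃ = -e₃ := by
  rw [← h.be2, ← h.bt1', h.t1e2, map_neg]

theorem e2ne (h : FG ρ b t₁ t₂ t₃ e₁ e₂ e₃) : e₂ ≠ 0 := by
  intro h2
  apply h.e1ne
  rw [← h.be1] at h2
  exact act_inj ρ b (h2.trans (map_zero _).symm)

theorem e3ne (h : FG ρ b t₁ t₂ t₃ e₁ e₂ e₃) : e₃ ≠ 0 := by
  intro h2
  apply h.e2ne
  rw [← h.be2] at h2
  exact act_inj ρ b (h2.trans (map_zero _).symm)

/-- The fixed part is also fixed by the third involution. -/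
theorem t3c (h : FG ρ b t₁ t₂ t₃ e₁ e₂ e₃) {c : E} (h1 : ρ t₁ c = c) (h2 : ρ t₂ c = c) :
    ρ t₃ c = c := by
  rw [← h.t12, act_mul, h2, h1]

/-- Cyclic shift of the data. -/
theorem shift (h : FG ρ b t₁ t₂ t₃ e₁ e₂ e₃) : FG ρ b t₂ t₃ t₁ e₂ e₃ e₁ where
  t1sq := h.t2sq
  t12 := h.t23
  t23 := h.t31
  t31 := h.t12
  bt1 := h.bt2
  bt2 := h.bt3
  bt3 := h.bt1
  be1 := h.be2
  be2 := h.be3
  be3 := h.be1
  e1ne := h.e2ne
  t1e1 := h.t2e2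
  t2e1 := h.t3e2
  span := by
    intro v
    obtain ⟨c, a₁, a₂, a₃, hv, hc1, hc2⟩ := h.span v
    refine ⟨c, a₂, a₃, a₁, ?_, hc2, h.t3c hc1 hc2⟩
    rw [hv]; abel
  bfix := by
    intro c h1 h2
    have hc1 : ρ t₁ c = c := by
      rw [← h.t23, act_mul, h2, h1]
    exact h.bfix c hc1 h1

/-- Change of sign of the data. -/
theorem neg (h : FG ρ b t₁ t₂ t₃ e₁ e₂ e₃) : FG ρ b t₁ t₂ t₃ (-e₁) (-e₂) (-e₃) where
  t1sq := h.t1sq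
  t12 := h.t12
  t23 := h.t23
  t31 := h.t31
  bt1 := h.bt1
  bt2 := h.bt2
  bt3 := h.bt3
  be1 := by rw [map_neg, h.be1]
  be2 := by rw [map_neg, h.be2]
  be3 := by rw [map_neg, h.be3]
  e1ne := neg_ne_zero.mpr h.e1ne
  t1e1 := by rw [map_neg, h.t1e1]
  t2e1 := by rw [map_neg, h.t2e1]
  span := by
    intro v
    obtain ⟨c, a₁, a₂, a₃, hv, hc1, hc2⟩ := h.span v
    refine ⟨c, -a₁, -a₂, -a₃, ?_, hc1, hc2⟩
    rw [hv]
    simp only [smul_neg, neg_smul, neg_neg]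
  bfix := h.bfix

/-- Conjugation of the data. -/
theorem conj (h : FG ρ b t₁ t₂ t₃ e₁ e₂ e₃) (g : G) :
    FG ρ (g * b * g⁻¹) (g * t₁ * g⁻¹) (g * t₂ * g⁻¹) (g * t₃ * g⁻¹) (ρ g e₁) (ρ g e₂) (ρ g e₃) where
  t1sq := by
    calc g * t₁ * g⁻¹ * (g * t₁ * g⁻¹) = g * (t₁ * t₁) * g⁻¹ := by group
      _ = 1 := by rw [h.t1sq]; group
  t12 := by
    rw [← h.t12]; group
  t23 := by
    rw [← h.t23]; group
  t31 := by
    rw [← h.t31]; group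
  bt1 := by
    rw [← h.bt1]; group
  bt2 := by
    rw [← h.bt2]; group
  bt3 := by
    rw [← h.bt3]; group
  be1 := by simp only [act_mul, act_inv_act, h.be1]
  be2 := by simp only [act_mul, act_inv_act, h.be2]
  be3 := by simp only [act_mul, act_inv_act, h.be3]
  e1ne := by
    intro h0
    apply h.e1ne
    exact act_inj ρ g (h0.trans (map_zero _).symm)
  t1e1 := by simp only [act_mul, act_inv_act, h.t1e1]
  t2e1 := by simp only [act_mul, act_inv_act, h.t2e1, map_neg]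
  span := by
    intro v
    obtain ⟨c, a₁, a₂, a₃, hv, hc1, hc2⟩ := h.span (ρ g⁻¹ v)
    refine ⟨ρ g c, a₁, a₂, a₃, ?_, ?_, ?_⟩
    · have := congrArg (ρ g) hv
      rw [act_act_inv] at this
      rw [this]
      simp only [map_add, map_smul]
    · simp only [act_mul, act_inv_act, hc1]
    · simp only [act_mul, act_inv_act, hc2]
  bfix := by
    intro c h1 h2
    have h1' : ρ t₁ (ρ g⁻¹ c) = ρ g⁻¹ c := by
      apply act_inj ρ g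
      simp only [act_mul] at h1
      rw [act_act_inv]
      exact h1
    have h2' : ρ t₂ (ρ g⁻¹ c) = ρ g⁻¹ c := by
      apply act_inj ρ g
      simp only [act_mul] at h2
      rw [act_act_inv]
      exact h2
    have h3 := h.bfix _ h1' h2'
    simp only [act_mul]
    rw [h3, act_act_inv]

/-- The coordinate projections. -/
theorem coord₁ (h : FG ρ b t₁ t₂ t₃ e₁ e₂ e₃) {c c' : E} {a₁ a₂ a₃ a₁' a₂' a₃' : ZMod 3}
    (hc1 : ρ t₁ c = c) (hc2 : ρ t₂ c = c) (hc1' : ρ t₁ c' = c') (hc2' : ρ t₂ c' = c')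
    (heq : c + a₁ • e₁ + a₂ • e₂ + a₃ • e₃ = c' + a₁' • e₁ + a₂' • e₂ + a₃' • e₃) : a₁ = a₁' := by
  have hP : ∀ (d : E) (x y w : ZMod 3), ρ t₁ d = d → ρ t₂ d = d →
      (d + x • e₁ + y • e₂ + w • e₃) + ρ t₁ (d + x • e₁ + y • e₂ + w • e₃)
        - ρ t₂ (d + x • e₁ + y • e₂ + w • e₃) - ρ t₃ (d + x • e₁ + y • e₂ + w • e₃) = x • e₁ := by
    intro d x y w h1 h2
    have h3 := h.t3c h1 h2
    simp only [map_add, map_smul, h1, h2, h3, h.t1e1, h.t2e1, h.t3e1, h.t1e2, h.t2e2, h.t3e2,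
      h.t1e3, h.t2e3, h.t3e3]
    have h4 := three_add (x • e₁)
    simp only [smul_neg]
    have h5 : d + x • e₁ + y • e₂ + w • e₃ + (d + x • e₁ + -(y • e₂) + -(w • e₃)) -
        (d + -(x • e₁) + y • e₂ + -(w • e₃)) - (d + -(x • e₁) + -(y • e₂) + w • e₃) =
        x • e₁ + x • e₁ + x • e₁ + x • e₁ := by abel
    rw [h5, four_smul_eq]
  have h1 := hP c a₁ a₂ a₃ hc1 hc2
  have h2 := hP c' a₁' a₂' a₃' hc1' hc2'
  rw [heq] at h1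
  exact eq_of_smul_eq h.e1ne (h1.symm.trans h2)

theorem coord₂ (h : FG ρ b t₁ t₂ t₃ e₁ e₂ e₃) {c c' : E} {a₁ a₂ a₃ a₁' a₂' a₃' : ZMod 3}
    (hc1 : ρ t₁ c = c) (hc2 : ρ t₂ c = c) (hc1' : ρ t₁ c' = c') (hc2' : ρ t₂ c' = c')
    (heq : c + a₁ • e₁ + a₂ • e₂ + a₃ • e₃ = c' + a₁' • e₁ + a₂' • e₂ + a₃' • e₃) : a₂ = a₂' := by
  refine h.shift.coord₁ (c := c) (c' := c') (a₁ := a₂) (a₂ := a₃) (a₃ := a₁) (a₁' := a₂')
    (a₂' := a₃') (a₃' := a₁') hc2 (h.t3c hc1 hc2) hc2' (h.t3c hc1' hc2') ?_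
  calc c + a₂ • e₂ + a₃ • e₃ + a₁ • e₁ = c + a₁ • e₁ + a₂ • e₂ + a₃ • e₃ := by abel
    _ = c' + a₁' • e₁ + a₂' • e₂ + a₃' • e₃ := heq
    _ = _ := by abel

theorem coord₃ (h : FG ρ b t₁ t₂ t₃ e₁ e₂ e₃) {c c' : E} {a₁ a₂ a₃ a₁' a₂' a₃' : ZMod 3}
    (hc1 : ρ t₁ c = c) (hc2 : ρ t₂ c = c) (hc1' : ρ t₁ c' = c') (hc2' : ρ t₂ c' = c')
    (heq : c + a₁ • e₁ + a₂ • e₂ + a₃ • e₃ = c' + a₁' • e₁ + a₂' • e₂ + a₃' • e₃) : a₃ = a₃' := by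
  refine h.shift.coord₂ (c := c) (c' := c') (a₁ := a₂) (a₂ := a₃) (a₃ := a₁) (a₁' := a₂')
    (a₂' := a₃') (a₃' := a₁') hc2 (h.t3c hc1 hc2) hc2' (h.t3c hc1' hc2') ?_
  calc c + a₂ • e₂ + a₃ • e₃ + a₁ • e₁ = c + a₁ • e₁ + a₂ • e₂ + a₃ • e₃ := by abel
    _ = c' + a₁' • e₁ + a₂' • e₂ + a₃' • e₃ := heq
    _ = _ := by abel

theorem coord_c (h : FG ρ b t₁ t₂ t₃ e₁ e₂ e₃) {c c' : E} {a₁ a₂ a₃ a₁' a₂' a₃' : ZMod 3}
    (hc1 : ρ t₁ c = c) (hc2 : ρ t₂ c = c) (hc1' : ρ t₁ c' = c') (hc2' : ρ t₂ c' = c')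
    (heq : c + a₁ • e₁ + a₂ • e₂ + a₃ • e₃ = c' + a₁' • e₁ + a₂' • e₂ + a₃' • e₃) : c = c' := by
  have e1 := h.coord₁ hc1 hc2 hc1' hc2' heq
  have e2 := h.coord₂ hc1 hc2 hc1' hc2' heq
  have e3 := h.coord₃ hc1 hc2 hc1' hc2' heq
  subst e1 e2 e3
  exact add_right_cancel (add_right_cancel (add_right_cancel heq))

/-- Eigenvectors: the sign pattern of the first line. -/
theorem eig₁ (h : FG ρ b t₁ t₂ t₃ e₁ e₂ e₃) {w : E} (h1 : ρ t₁ w = w) (h2 : ρ t₂ w = -w) :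
    ∃ a : ZMod 3, w = a • e₁ := by
  obtain ⟨c, a₁, a₂, a₃, hv, hc1, hc2⟩ := h.span w
  have ht1 : ρ t₁ w = c + a₁ • e₁ + (-a₂) • e₂ + (-a₃) • e₃ := by
    rw [hv]
    simp only [map_add, map_smul, hc1, h.t1e1, h.t1e2, h.t1e3, smul_neg, neg_smul]
  have ht2 : ρ t₂ w = c + (-a₁) • e₁ + a₂ • e₂ + (-a₃) • e₃ := by
    rw [hv]
    simp only [map_add, map_smul, hc2, h.t2e1, h.t2e2, h.t2e3, smul_neg, neg_smul]
  have ha2 : a₂ = 0 := by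
    exact zm_eq_zero (h.coord₂ hc1 hc2 hc1 hc2 (ht1.symm.trans (h1.trans hv)))
  have ha3 : a₃ = 0 := by
    exact zm_eq_zero (h.coord₃ hc1 hc2 hc1 hc2 (ht1.symm.trans (h1.trans hv)))
  have hc0 : c = 0 := by
    have h4 : ρ t₂ w = -w := h2
    rw [ht2, hv, ha2, ha3] at h4
    simp only [zero_smul, add_zero, neg_zero, neg_smul, neg_add_rev] at h4
    have h5 : c + -(a₁ • e₁) = -(a₁ • e₁) + -c := h4
    rw [add_comm (-(a₁ • e₁)) (-c)] at h5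
    exact eq_zero_of_eq_neg (add_right_cancel h5)
  exact ⟨a₁, by rw [hv, ha2, ha3, hc0]; simp⟩

theorem eig₂ (h : FG ρ b t₁ t₂ t₃ e₁ e₂ e₃) {w : E} (h1 : ρ t₁ w = -w) (h2 : ρ t₂ w = w) :
    ∃ a : ZMod 3, w = a • e₂ := by
  refine h.shift.eig₁ h2 ?_
  rw [← h.t12, act_mul, h2, h1]

theorem eig₃ (h : FG ρ b t₁ t₂ t₃ e₁ e₂ e₃) {w : E} (h1 : ρ t₁ w = -w) (h2 : ρ t₂ w = -w) :
    ∃ a : ZMod 3, w = a • e₃ := by
  refine h.shift.shift.eig₁ ?_ h1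
  rw [← h.t12, act_mul, h2, map_neg, h1, neg_neg]

end FG

end FG

end Cfsg.Agent.Lib.CubA
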