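import Mathlib
import Cfsg.Agent.Lib.CubA

/-!
# Existence of four-group data
-/

set_option autoImplicit false
set_option linter.unusedSectionVars false
set_option linter.unusedVariables false

namespace Cfsg.Agent.Lib.CubB

open Cfsg.Agent.Lib.CubA

variable {G : Type*} [Group G] {E : Type*} [AddCommGroup E] [Module (ZMod 3) E]

/-- The four projections of a vector under a four-group. -/
theorem proj_one {ρ : Representation (ZMod 3) G E} {t₁ t₂ t₃ : G} (t12 : t₁ * t₂ = t₃)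
    {w₁ w₂ w₃ c : E}
    (h11 : ρ t₁ w₁ = w₁) (h12 : ρ t₂ w₁ = -w₁)
    (h21 : ρ t₁ w₂ = -w₂) (h22 : ρ t₂ w₂ = w₂)
    (h31 : ρ t₁ w₃ = -w₃) (h32 : ρ t₂ w₃ = -w₃)
    (hc1 : ρ t₁ c = c) (hc2 : ρ t₂ c = c) :
    (w₁ + w₂ + w₃ + c) + ρ t₁ (w₁ + w₂ + w₃ + c) - ρ t₂ (w₁ + w₂ + w₃ + c)
      - ρ t₃ (w₁ + w₂ + w₃ + c) = w₁ := by
  subst t12
  simp only [act_mul, map_add, map_neg, h11, h12, h21, h22, h31, h32, hc1, hc2, neg_neg]
  have h : w₁ + w₂ + w₃ + c + (w₁ + -w₂ + -w₃ + c) - (-w₁ + w₂ + -w₃ + c) - (-w₁ + -w₂ + w₃ + c)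
      = w₁ + w₁ + w₁ + w₁ := by abel
  rw [h, four_smul_eq]

theorem proj_three {ρ : Representation (ZMod 3) G E} {t₁ t₂ t₃ : G} (t12 : t₁ * t₂ = t₃)
    {w₁ w₂ w₃ c : E}
    (h11 : ρ t₁ w₁ = w₁) (h12 : ρ t₂ w₁ = -w₁)
    (h21 : ρ t₁ w₂ = -w₂) (h22 : ρ t₂ w₂ = w₂)
    (h31 : ρ t₁ w₃ = -w₃) (h32 : ρ t₂ w₃ = -w₃)
    (hc1 : ρ t₁ c = c) (hc2 : ρ t₂ c = c) :
    (w₁ + w₂ + w₃ + c) - ρ t₁ (w₁ + w₂ + w₃ + c) - ρ t₂ (w₁ + w₂ + w₃ + c)
      + ρ t₃ (w₁ + w₂ + w₃ + c) = w₃ := by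
  subst t12
  simp only [act_mul, map_add, map_neg, h11, h12, h21, h22, h31, h32, hc1, hc2, neg_neg]
  have h : w₁ + w₂ + w₃ + c - (w₁ + -w₂ + -w₃ + c) - (-w₁ + w₂ + -w₃ + c) + (-w₁ + -w₂ + w₃ + c)
      = w₃ + w₃ + w₃ + w₃ := by abel
  rw [h, four_smul_eq]

theorem exists_FG [Finite E] {ρ : Representation (ZMod 3) G E} {b t₁ t₂ t₃ : G}
    (hb3 : b * b * b = 1)
    (t1sq : t₁ * t₁ = 1) (t12 : t₁ * t₂ = t₃) (t23 : t₂ * t₃ = t₁) (t31 : t₃ * t₁ = t₂)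
    (bt1 : b * t₁ * b⁻¹ = t₂) (bt2 : b * t₂ * b⁻¹ = t₃) (bt3 : b * t₃ * b⁻¹ = t₁)
    (hne : ρ t₁ ≠ 1)
    (hrank : Nat.card (LinearMap.range (ρ b - 1)) ≤ 9) :
    ∃ e₁ e₂ e₃, FG ρ b t₁ t₂ t₃ e₁ e₂ e₃ := by
  have t2sq : t₂ * t₂ = 1 := by
    rw [← bt1]
    calc b * t₁ * b⁻¹ * (b * t₁ * b⁻¹) = b * (t₁ * t₁) * b⁻¹ := by group
      _ = 1 := by rw [t1sq]; group
  have t3sq : t₃ * t₃ = 1 := by
    rw [← bt2]
    calc b * t₂ * b⁻¹ * (b * t₂ * b⁻¹) = b * (t₂ * t₂) * b⁻¹ := by group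
      _ = 1 := by rw [t2sq]; group
  have t21 : t₂ * t₁ = t₃ := by
    have h1 : t₂ * t₁ = t₂ * (t₂ * t₃) := by rw [t23]
    rw [h1, ← mul_assoc, t2sq, one_mul]
  have t32 : t₃ * t₂ = t₁ := by
    have h1 : t₃ * t₂ = t₃ * (t₃ * t₁) := by rw [t31]
    rw [h1, ← mul_assoc, t3sq, one_mul]
  have t13 : t₁ * t₃ = t₂ := by
    have h1 : t₁ * t₃ = t₁ * (t₁ * t₂) := by rw [t12]
    rw [h1, ← mul_assoc, t1sq, one_mul]
  have a11 : ∀ v, ρ t₁ (ρ t₁ v) = v := fun v => by rw [← act_mul, t1sq, act_one]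
  have a22 : ∀ v, ρ t₂ (ρ t₂ v) = v := fun v => by rw [← act_mul, t2sq, act_one]
  have a33 : ∀ v, ρ t₃ (ρ t₃ v) = v := fun v => by rw [← act_mul, t3sq, act_one]
  have a12 : ∀ v, ρ t₁ (ρ t₂ v) = ρ t₃ v := fun v => by rw [← act_mul, t12]
  have a21 : ∀ v, ρ t₂ (ρ t₁ v) = ρ t₃ v := fun v => by rw [← act_mul, t21]
  have a13 : ∀ v, ρ t₁ (ρ t₃ v) = ρ t₂ v := fun v => by rw [← act_mul, t13]
  have a31 : ∀ v, ρ t₃ (ρ t₁ v) = ρ t₂ v := fun v => by rw [← act_mul, t31]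
  have a23 : ∀ v, ρ t₂ (ρ t₃ v) = ρ t₁ v := fun v => by rw [← act_mul, t23]
  have a32 : ∀ v, ρ t₃ (ρ t₂ v) = ρ t₁ v := fun v => by rw [← act_mul, t32]
  have b1 : ∀ v, ρ b (ρ t₁ v) = ρ t₂ (ρ b v) := fun v => by
    rw [← act_mul, ← act_mul, ← bt1]; congr 2; group
  have b2 : ∀ v, ρ b (ρ t₂ v) = ρ t₃ (ρ b v) := fun v => by
    rw [← act_mul, ← act_mul, ← bt2]; congr 2; group
  have b3 : ∀ v, ρ b (ρ t₃ v) = ρ t₁ (ρ b v) := fun v => by
    rw [← act_mul, ← act_mul, ← bt3]; congr 2; group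
  have bbb : ∀ v, ρ b (ρ b (ρ b v)) = v := fun v => by
    rw [← act_mul, ← act_mul, hb3, act_one]
  -- the projections
  let P₁ : E → E := fun v => v + ρ t₁ v - ρ t₂ v - ρ t₃ v
  let P₂ : E → E := fun v => v - ρ t₁ v + ρ t₂ v - ρ t₃ v
  let P₃ : E → E := fun v => v - ρ t₁ v - ρ t₂ v + ρ t₃ v
  let P₀ : E → E := fun v => v + ρ t₁ v + ρ t₂ v + ρ t₃ v
  have hsum : ∀ v, P₀ v + P₁ v + P₂ v + P₃ v = v := by
    intro v
    have h : P₀ v + P₁ v + P₂ v + P₃ v = v + v + v + v := by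
      simp only [P₀, P₁, P₂, P₃]; abel
    rw [h, four_smul_eq]
  have P1t1 : ∀ v, ρ t₁ (P₁ v) = P₁ v := by
    intro v
    simp only [P₁, map_add, map_sub, a11, a12, a13]; abel
  have P1t2 : ∀ v, ρ t₂ (P₁ v) = -P₁ v := by
    intro v
    simp only [P₁, map_add, map_sub, a21, a22, a23]; abel
  have P2t1 : ∀ v, ρ t₁ (P₂ v) = -P₂ v := by
    intro v
    simp only [P₂, map_add, map_sub, a11, a12, a13]; abel
  have P2t2 : ∀ v, ρ t₂ (P₂ v) = P₂ v := by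
    intro v
    simp only [P₂, map_add, map_sub, a21, a22, a23]; abel
  have P3t1 : ∀ v, ρ t₁ (P₃ v) = -P₃ v := by
    intro v
    simp only [P₃, map_add, map_sub, a11, a12, a13]; abel
  have P3t2 : ∀ v, ρ t₂ (P₃ v) = -P₃ v := by
    intro v
    simp only [P₃, map_add, map_sub, a21, a22, a23]; abel
  have P0t1 : ∀ v, ρ t₁ (P₀ v) = P₀ v := by
    intro v
    simp only [P₀, map_add, a11, a12, a13]; abel
  have P0t2 : ∀ v, ρ t₂ (P₀ v) = P₀ v := by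
    intro v
    simp only [P₀, map_add, a21, a22, a23]; abel
  have bP1 : ∀ v, ρ b (P₁ v) = P₂ (ρ b v) := by
    intro v
    simp only [P₁, P₂, map_add, map_sub, b1, b2, b3]; abel
  have bP2 : ∀ v, ρ b (P₂ v) = P₃ (ρ b v) := by
    intro v
    simp only [P₂, P₃, map_add, map_sub, b1, b2, b3]; abel
  have bP3 : ∀ v, ρ b (P₃ v) = P₁ (ρ b v) := by
    intro v
    simp only [P₃, P₁, map_add, map_sub, b1, b2, b3]; abel
  -- a nonzero vector on the first line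
  have hex : ∃ v, P₁ v ≠ 0 := by
    by_contra hall
    push Not at hall
    have h2 : ∀ v, P₂ v = 0 := by
      intro v
      have h3 := bP1 (ρ b⁻¹ v)
      rw [hall, map_zero, act_act_inv] at h3
      exact h3.symm
    have h3 : ∀ v, P₃ v = 0 := by
      intro v
      have h4 := bP2 (ρ b⁻¹ v)
      rw [h2, map_zero, act_act_inv] at h4
      exact h4.symm
    apply hne
    ext v
    have h4 : P₂ v + P₃ v = (v + v) - (ρ t₁ v + ρ t₁ v) := by
      simp only [P₂, P₃]; abel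
    rw [h2, h3, add_zero] at h4
    have h5 : v + v = ρ t₁ v + ρ t₁ v := sub_eq_zero.mp h4.symm
    have h6 : v - ρ t₁ v = -(v - ρ t₁ v) := by
      have h7 : (v - ρ t₁ v) + (v - ρ t₁ v) = 0 := by
        have : (v - ρ t₁ v) + (v - ρ t₁ v) = (v + v) - (ρ t₁ v + ρ t₁ v) := by abel
        rw [this, h5, sub_self]
      exact eq_neg_of_add_eq_zero_left h7
    have h8 := eq_zero_of_eq_neg h6
    rw [Module.End.one_apply]
    exact (sub_eq_zero.mp h8).symm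
  obtain ⟨v₀, hv₀⟩ := hex
  set e₁ := P₁ v₀ with he₁
  set e₂ := ρ b e₁ with he₂
  set e₃ := ρ b e₂ with he₃
  have be3 : ρ b e₃ = e₁ := bbb e₁
  have t1e1 : ρ t₁ e₁ = e₁ := P1t1 v₀
  have t2e1 : ρ t₂ e₁ = -e₁ := P1t2 v₀
  have t1e2 : ρ t₁ e₂ = -e₂ := by
    have h1 : ρ t₃ e₁ = -e₁ := by rw [← a12, t2e1, map_neg, t1e1]
    rw [he₂, ← b3, h1, map_neg]
  have t2e2 : ρ t₂ e₂ = e₂ := by rw [he₂, ← b1, t1e1]
  have t1e3 : ρ t₁ e₃ = -e₃ := by
    have h1 : ρ t₃ e₂ = -e₂ := by rw [he₂, ← b2, t2e1, map_neg]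
    rw [he₃, ← b3, h1, map_neg]
  have t2e3 : ρ t₂ e₃ = -e₃ := by rw [he₃, ← b1, t1e2, map_neg]
  have e2ne : e₂ ≠ 0 := by
    intro h0
    apply hv₀
    exact act_inj ρ b (h0.trans (map_zero _).symm)
  have e3ne : e₃ ≠ 0 := by
    intro h0
    apply e2ne
    exact act_inj ρ b (h0.trans (map_zero _).symm)
  -- bound on the first line
  have indep : ∀ {w₁ w₂ w₃ c : E}, ρ t₁ w₁ = w₁ → ρ t₂ w₁ = -w₁ → ρ t₁ w₂ = -w₂ → ρ t₂ w₂ = w₂ →
      ρ t₁ w₃ = -w₃ → ρ t₂ w₃ = -w₃ → ρ t₁ c = c → ρ t₂ c = c → w₁ + w₂ + w₃ + c = 0 → w₁ = 0 := by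
    intro w₁ w₂ w₃ c h11 h12 h21 h22 h31 h32 hc1 hc2 h0
    have := proj_one t12 h11 h12 h21 h22 h31 h32 hc1 hc2
    rw [h0] at this
    simpa using this.symm
  have hinj : ∀ {w w' : E}, ρ t₁ w = w → ρ t₂ w = -w → ρ t₁ w' = w' → ρ t₂ w' = -w' →
      (ρ b - 1) (w + ρ b w') = 0 → w = 0 ∧ w' = 0 := by
    intro w w' h1 h2 h3 h4 h0
    have h5 : ρ b (ρ b w') + (ρ b w + -ρ b w') + -w = 0 := by
      have h6 : (ρ b - 1) (w + ρ b w') = ρ b w + ρ b (ρ b w') - (w + ρ b w') := by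
        simp [LinearMap.sub_apply]
      rw [h6] at h0
      rw [← h0]; abel
    -- component on the third line: bb w'
    have l1 : ρ t₁ (ρ b w) = -ρ b w := by
      have h1' : ρ t₃ w = -w := by rw [← a12, h2, map_neg, h1]
      rw [← b3, h1', map_neg]
    have l2 : ρ t₂ (ρ b w) = ρ b w := by rw [← b1, h1]
    have l1' : ρ t₁ (ρ b w') = -ρ b w' := by
      have h1' : ρ t₃ w' = -w' := by rw [← a12, h4, map_neg, h3]
      rw [← b3, h1', map_neg]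
    have l2' : ρ t₂ (ρ b w') = ρ b w' := by rw [← b1, h3]
    have m1 : ρ t₁ (ρ b (ρ b w')) = -ρ b (ρ b w') := by
      have h1' : ρ t₃ (ρ b w') = -ρ b w' := by rw [← b2, h4, map_neg]
      rw [← b3, h1', map_neg]
    have m2 : ρ t₂ (ρ b (ρ b w')) = -ρ b (ρ b w') := by rw [← b1, l1', map_neg]
    have hw : w = 0 := by
      have h7 := indep (w₁ := -w) (w₂ := ρ b w + -ρ b w') (w₃ := ρ b (ρ b w')) (c := 0)
        (by rw [map_neg, h1]) (by rw [map_neg, h2])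
        (by rw [map_add, map_neg, l1, l1']; abel) (by rw [map_add, map_neg, l2, l2'])
        m1 m2 (map_zero _) (map_zero _)
        (by rw [add_zero, ← h5]; abel)
      exact neg_eq_zero.mp h7
    have h8 : ρ b (ρ b w') = 0 := by
      have h9 := proj_three (ρ := ρ) t12 (w₁ := -w) (w₂ := ρ b w + -ρ b w') (w₃ := ρ b (ρ b w')) (c := 0)
        (by rw [map_neg, h1]) (by rw [map_neg, h2])
        (by rw [map_add, map_neg, l1, l1']; abel) (by rw [map_add, map_neg, l2, l2'])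
        m1 m2 (map_zero _) (map_zero _)
      have h10 : -w + (ρ b w + -ρ b w') + ρ b (ρ b w') + 0 = 0 := by
        rw [add_zero, ← h5]; abel
      rw [h10] at h9
      simpa using h9.symm
    exact ⟨hw, act_inj ρ b (act_inj ρ b (by rw [h8, map_zero, map_zero]))⟩
  let L₁ : Submodule (ZMod 3) E := LinearMap.ker (ρ t₁ - 1) ⊓ LinearMap.ker (ρ t₂ + 1)
  have memL : ∀ w, w ∈ L₁ ↔ (ρ t₁ w = w ∧ ρ t₂ w = -w) := by
    intro w
    simp only [L₁, Submodule.mem_inf, LinearMap.mem_ker, LinearMap.sub_apply, LinearMap.add_apply,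
      Module.End.one_apply, sub_eq_zero]
    rw [add_eq_zero_iff_eq_neg]
  have hcardL : Nat.card L₁ ≤ 3 := by
    let Ψ : L₁ × L₁ → LinearMap.range (ρ b - 1) := fun p =>
      ⟨(ρ b - 1) ((p.1 : E) + ρ b (p.2 : E)), LinearMap.mem_range_self _ _⟩
    have hΨ : Function.Injective Ψ := by
      intro p q hpq
      have h1 : (ρ b - 1) ((p.1 : E) + ρ b (p.2 : E)) = (ρ b - 1) ((q.1 : E) + ρ b (q.2 : E)) :=
        congrArg Subtype.val hpq
      have h2 : (ρ b - 1) (((p.1 : E) - q.1) + ρ b ((p.2 : E) - q.2)) = 0 := by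
        have h3 : ((p.1 : E) - q.1) + ρ b ((p.2 : E) - q.2) =
            ((p.1 : E) + ρ b (p.2 : E)) - ((q.1 : E) + ρ b (q.2 : E)) := by
          rw [map_sub]; abel
        rw [h3, map_sub, h1, sub_self]
      have hp1 := (memL _).1 p.1.2
      have hq1 := (memL _).1 q.1.2
      have hp2 := (memL _).1 p.2.2
      have hq2 := (memL _).1 q.2.2
      obtain ⟨h4, h5⟩ := hinj (w := (p.1 : E) - q.1) (w' := (p.2 : E) - q.2)
        (by rw [map_sub, hp1.1, hq1.1]) (by rw [map_sub, hp1.2, hq1.2]; abel)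
        (by rw [map_sub, hp2.1, hq2.1]) (by rw [map_sub, hp2.2, hq2.2]; abel) h2
      exact Prod.ext (Subtype.ext (sub_eq_zero.mp h4)) (Subtype.ext (sub_eq_zero.mp h5))
    have h1 := Nat.card_le_card_of_injective Ψ hΨ
    rw [Nat.card_prod] at h1
    have h2 := h1.trans hrank
    nlinarith
  have lineL : ∀ w, ρ t₁ w = w → ρ t₂ w = -w → ∃ a : ZMod 3, w = a • e₁ := by
    intro w h1 h2
    let f : ZMod 3 → L₁ := fun a => ⟨a • e₁, (memL _).2 (by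
      constructor
      · rw [map_smul, t1e1]
      · rw [map_smul, t2e1, smul_neg])⟩
    have hf : Function.Injective f := by
      intro a a' h
      exact eq_of_smul_eq hv₀ (congrArg Subtype.val h)
    have hcz : Nat.card (ZMod 3) = 3 := by simp
    have hb := hf.bijective_of_nat_card_le (by rw [hcz]; exact hcardL)
    obtain ⟨a, ha⟩ := hb.2 ⟨w, (memL _).2 ⟨h1, h2⟩⟩
    exact ⟨a, (congrArg Subtype.val ha).symm⟩
  have hP1 : ∀ v, ∃ a : ZMod 3, P₁ v = a • e₁ := fun v => lineL _ (P1t1 v) (P1t2 v)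
  have hP2 : ∀ v, ∃ a : ZMod 3, P₂ v = a • e₂ := by
    intro v
    obtain ⟨a, ha⟩ := hP1 (ρ b⁻¹ v)
    refine ⟨a, ?_⟩
    have h1 := bP1 (ρ b⁻¹ v)
    rw [act_act_inv, ha, map_smul] at h1
    exact h1.symm
  have hP3 : ∀ v, ∃ a : ZMod 3, P₃ v = a • e₃ := by
    intro v
    obtain ⟨a, ha⟩ := hP2 (ρ b⁻¹ v)
    refine ⟨a, ?_⟩
    have h1 := bP2 (ρ b⁻¹ v)
    rw [act_act_inv, ha, map_smul] at h1
    exact h1.symm
  -- surjectivity on the commutator space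
  have hsurj : ∀ x ∈ LinearMap.range (ρ b - 1), ∃ a a' : ZMod 3, x = (ρ b - 1) (a • e₁ + a' • e₂) := by
    let ψ : ZMod 3 × ZMod 3 → LinearMap.range (ρ b - 1) := fun p =>
      ⟨(ρ b - 1) (p.1 • e₁ + p.2 • e₂), LinearMap.mem_range_self _ _⟩
    have hψ : Function.Injective ψ := by
      intro p q hpq
      have h1 : (ρ b - 1) (p.1 • e₁ + p.2 • e₂) = (ρ b - 1) (q.1 • e₁ + q.2 • e₂) :=
        congrArg Subtype.val hpq
      have h2 : (ρ b - 1) (((p.1 - q.1) • e₁) + ρ b ((p.2 - q.2) • e₁)) = 0 := by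
        have h3 : ((p.1 - q.1) • e₁) + ρ b ((p.2 - q.2) • e₁) =
            (p.1 • e₁ + p.2 • e₂) - (q.1 • e₁ + q.2 • e₂) := by
          rw [map_smul, sub_smul, sub_smul]; abel
        rw [h3, map_sub, h1, sub_self]
      obtain ⟨h4, h5⟩ := hinj (w := (p.1 - q.1) • e₁) (w' := (p.2 - q.2) • e₁)
        (by rw [map_smul, t1e1]) (by rw [map_smul, t2e1, smul_neg])
        (by rw [map_smul, t1e1]) (by rw [map_smul, t2e1, smul_neg]) h2
      have h6 : p.1 - q.1 = 0 := by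
        rcases smul_eq_zero.mp h4 with h | h
        · exact h
        · exact absurd h hv₀
      have h7 : p.2 - q.2 = 0 := by
        rcases smul_eq_zero.mp h5 with h | h
        · exact h
        · exact absurd h hv₀
      exact Prod.ext (sub_eq_zero.mp h6) (sub_eq_zero.mp h7)
    have hcz : Nat.card (ZMod 3 × ZMod 3) = 9 := by
      rw [Nat.card_prod]; simp
    have hb := hψ.bijective_of_nat_card_le (by rw [hcz]; exact hrank)
    intro x hx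
    obtain ⟨p, hp⟩ := hb.2 ⟨x, hx⟩
    exact ⟨p.1, p.2, (congrArg Subtype.val hp).symm⟩
  refine ⟨e₁, e₂, e₃, ⟨t1sq, t12, t23, t31, bt1, bt2, bt3, rfl, rfl, be3, hv₀, t1e1, t2e1, ?_, ?_⟩⟩
  · intro v
    obtain ⟨a₁, h1⟩ := hP1 v
    obtain ⟨a₂, h2⟩ := hP2 v
    obtain ⟨a₃, h3⟩ := hP3 v
    refine ⟨P₀ v, a₁, a₂, a₃, ?_, P0t1 v, P0t2 v⟩
    rw [← h1, ← h2, ← h3, hsum]
  · intro c h1 h2
    have h3 : ρ t₃ c = c := by rw [← a12, h2, h1]
    obtain ⟨a, a', hd⟩ := hsurj ((ρ b - 1) c) (LinearMap.mem_range_self _ _)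
    set d := (ρ b - 1) c with hd0
    have hd1 : d = ρ b c - c := by simp [hd0, LinearMap.sub_apply]
    have hdt1 : ρ t₁ d = d := by
      rw [hd1, map_sub, h1, ← b3, h3]
    have hdt2 : ρ t₂ d = d := by
      rw [hd1, map_sub, h2, ← b1, h1]
    have hd2 : d = a • e₂ + a' • e₃ - (a • e₁ + a' • e₂) := by
      rw [hd]
      simp only [LinearMap.sub_apply, Module.End.one_apply, map_add, map_smul]
      have r1 : ρ b e₁ = e₂ := rfl
      have r2 : ρ b e₂ = e₃ := rfl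
      rw [r1, r2]
      have aux : ∀ (x y z : E) (a a' : ZMod 3), a • (y - x) + a' • (z - y) =
          a • y + a' • z - (a • x + a' • y) := by
        intro x y z a a'
        simp only [smul_sub]
        abel
      exact aux _ _ _ _ _
    have hz : (-(a • e₁)) + ((a - a') • e₂) + (a' • e₃) + (-d) = 0 := by
      rw [hd2, sub_smul]; abel
    have h4 := proj_one (ρ := ρ) t12 (w₁ := -(a • e₁)) (w₂ := (a - a') • e₂) (w₃ := a' • e₃) (c := -d)
      (by rw [map_neg, map_smul, t1e1]) (by rw [map_neg, map_smul, t2e1, smul_neg])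
      (by rw [map_smul, t1e2, smul_neg]) (by rw [map_smul, t2e2])
      (by rw [map_smul, t1e3, smul_neg]) (by rw [map_smul, t2e3, smul_neg])
      (by rw [map_neg, hdt1]) (by rw [map_neg, hdt2])
    rw [hz] at h4
    have h5 := proj_three (ρ := ρ) t12 (w₁ := -(a • e₁)) (w₂ := (a - a') • e₂) (w₃ := a' • e₃) (c := -d)
      (by rw [map_neg, map_smul, t1e1]) (by rw [map_neg, map_smul, t2e1, smul_neg])
      (by rw [map_smul, t1e2, smul_neg]) (by rw [map_smul, t2e2])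
      (by rw [map_smul, t1e3, smul_neg]) (by rw [map_smul, t2e3, smul_neg])
      (by rw [map_neg, hdt1]) (by rw [map_neg, hdt2])
    rw [hz] at h5
    have h6 : a • e₁ = 0 := by simpa using h4.symm
    have h7 : a' • e₃ = 0 := by simpa using h5.symm
    have ha : a = 0 := by
      rcases smul_eq_zero.mp h6 with h | h
      · exact h
      · exact absurd h hv₀
    have ha' : a' = 0 := by
      rcases smul_eq_zero.mp h7 with h | h
      · exact h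
      · exact absurd h e3ne
    have hd3 : d = 0 := by rw [hd2, ha, ha']; simp
    rw [hd1, sub_eq_zero] at hd3
    exact hd3

end Cfsg.Agent.Lib.CubB
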