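import Mathlib
import Cfsg.Agent.Lib.CubB

/-!
# The setting: a group `R` with an element `b`, the averaging projection, and irreducibility
-/

set_option autoImplicit false
set_option linter.unusedSectionVars false
set_option linter.unusedVariables false

namespace Cfsg.Agent.Lib.CubC

open Cfsg.Agent.Lib.CubA Cfsg.Agent.Lib.CubB

variable {G : Type*} [Group G] {E : Type*} [AddCommGroup E] [Module (ZMod 3) E]

/-- The setting. -/
structure Sett (ρ : Representation (ZMod 3) G E) (R : Subgroup G) (b : G) : Prop where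
  faith : Function.Injective ρ
  b3 : b * b * b = 1
  nb : ∀ r ∈ R, b * r * b⁻¹ ∈ R
  cop : ∀ r ∈ R, ¬ 3 ∣ orderOf r
  gen : ∀ L : Subgroup G, (∀ r ∈ R, r * b * r⁻¹ * b⁻¹ ∈ L) → R ≤ L
  rank : Nat.card (LinearMap.range (ρ b - 1)) ≤ 9
  j3 : ∃ v, ρ b (ρ b v - v) - (ρ b v - v) ≠ 0

variable {ρ : Representation (ZMod 3) G E} {R : Subgroup G} {b : G}

namespace Sett

theorem binv (h : Sett ρ R b) : b⁻¹ = b * b := by
  have := h.b3
  rw [inv_eq_iff_mul_eq_one, ← mul_assoc]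
  exact this

theorem nb' (h : Sett ρ R b) {r : G} (hr : r ∈ R) : b⁻¹ * r * b ∈ R := by
  have h1 := h.nb _ (h.nb r hr)
  have h2 : b * (b * r * b⁻¹) * b⁻¹ = b⁻¹ * r * b := by
    have h3 : b * b = b⁻¹ := h.binv.symm
    have h4 : b⁻¹ * b⁻¹ = b := by
      rw [h.binv]
      calc b * b * (b * b) = (b * b * b) * b := by group
        _ = b := by rw [h.b3, one_mul]
    calc b * (b * r * b⁻¹) * b⁻¹ = (b * b) * r * (b⁻¹ * b⁻¹) := by group
      _ = _ := by rw [h3, h4]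
  rwa [h2] at h1

theorem card_not_dvd [Finite G] (h : Sett ρ R b) : ¬ 3 ∣ Nat.card R := by
  intro hd
  haveI : Fact (Nat.Prime 3) := ⟨by norm_num⟩
  obtain ⟨x, hx⟩ := exists_prime_orderOf_dvd_card' 3 hd
  apply h.cop x x.2
  rw [Subgroup.orderOf_coe, hx]

/-- If `b` is trivial on an invariant subgroup, so is `R`. -/
theorem triv_of_b (h : Sett ρ R b) (N : Submodule (ZMod 3) E)
    (hNR : ∀ r ∈ R, ∀ v ∈ N, ρ r v ∈ N) (hb : ∀ v ∈ N, ρ b v = v) :
    ∀ r ∈ R, ∀ v ∈ N, ρ r v = v := by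
  let L : Subgroup G :=
    { carrier := {g | ∀ v ∈ N, ρ g v = v}
      mul_mem' := by
        intro x y hx hy v hv
        rw [act_mul, hy v hv, hx v hv]
      one_mem' := by
        intro v _
        exact act_one ρ v
      inv_mem' := by
        intro x hx v hv
        have := hx v hv
        nth_rewrite 1 [← this]
        exact act_inv_act ρ x v }
  have hL : R ≤ L := by
    apply h.gen
    intro r hr v hv
    have hbi : ρ b⁻¹ v = v := by
      nth_rewrite 1 [← hb v hv]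
      exact act_inv_act ρ b v
    have hrv : ρ r⁻¹ v ∈ N := hNR _ (R.inv_mem hr) v hv
    simp only [act_mul]
    rw [hbi, hb _ hrv, act_act_inv]
  intro r hr v hv
  exact hL hr v hv

section Avg

variable [Finite G] [Finite E]

/-- The averaging map. -/
noncomputable def avg (ρ : Representation (ZMod 3) G E) (R : Subgroup G) : E →ₗ[ZMod 3] E :=
  letI := Fintype.ofFinite R
  ((Nat.card R : ZMod 3)⁻¹) • ∑ r : R, ρ (r : G)

theorem avg_apply (v : E) :
    letI := Fintype.ofFinite R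
    avg ρ R v = ((Nat.card R : ZMod 3)⁻¹) • ∑ r : R, ρ (r : G) v := by
  simp [avg, LinearMap.sum_apply]

theorem card_ne (h : Sett ρ R b) : (Nat.card R : ZMod 3) ≠ 0 := by
  intro h0
  exact h.card_not_dvd ((ZMod.natCast_eq_zero_iff _ _).mp h0)

theorem avg_act {r : G} (hr : r ∈ R) (v : E) : avg ρ R (ρ r v) = avg ρ R v := by
  letI := Fintype.ofFinite R
  rw [avg_apply, avg_apply]
  congr 1
  refine Fintype.sum_equiv (Equiv.mulRight (⟨r, hr⟩ : R)) _ _ ?_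
  intro x
  simp

theorem act_avg {r : G} (hr : r ∈ R) (v : E) : ρ r (avg ρ R v) = avg ρ R v := by
  letI := Fintype.ofFinite R
  rw [avg_apply, map_smul, map_sum]
  congr 1
  refine Fintype.sum_equiv (Equiv.mulLeft (⟨r, hr⟩ : R)) _ _ ?_
  intro x
  simp

theorem b_avg (h : Sett ρ R b) (v : E) : ρ b (avg ρ R v) = avg ρ R (ρ b v) := by
  letI := Fintype.ofFinite R
  rw [avg_apply, avg_apply, map_smul, map_sum]
  congr 1
  let e : R ≃ R :=
    { toFun := fun r => ⟨b * r * b⁻¹, h.nb _ r.2⟩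
      invFun := fun r => ⟨b⁻¹ * r * b, h.nb' r.2⟩
      left_inv := by
        intro r
        apply Subtype.ext
        show b⁻¹ * (b * r * b⁻¹) * b = r
        group
      right_inv := by
        intro r
        apply Subtype.ext
        show b * (b⁻¹ * r * b) * b⁻¹ = r
        group }
  refine Fintype.sum_equiv e _ _ ?_
  intro x
  show ρ b (ρ x v) = ρ (b * x * b⁻¹) (ρ b v)
  simp only [act_mul, act_inv_act]

/-- The fixed points of `R`. -/
def F1 (ρ : Representation (ZMod 3) G E) (R : Subgroup G) : Submodule (ZMod 3) E where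
  carrier := {v | ∀ r ∈ R, ρ r v = v}
  add_mem' := by
    intro a c ha hc r hr
    rw [map_add, ha r hr, hc r hr]
  zero_mem' := by
    intro r _
    exact map_zero _
  smul_mem' := by
    intro c x hx r hr
    rw [map_smul, hx r hr]

theorem mem_F1 {v : E} : v ∈ F1 ρ R ↔ ∀ r ∈ R, ρ r v = v := Iff.rfl

/-- The commutator part. -/
noncomputable def W (ρ : Representation (ZMod 3) G E) (R : Subgroup G) : Submodule (ZMod 3) E :=
  LinearMap.ker (avg ρ R)

theorem mem_W {v : E} : v ∈ W ρ R ↔ avg ρ R v = 0 := LinearMap.mem_ker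

theorem avg_mem_F1 (v : E) : avg ρ R v ∈ F1 ρ R := fun _ hr => act_avg hr v

theorem avg_of_F1 (h : Sett ρ R b) {v : E} (hv : v ∈ F1 ρ R) : avg ρ R v = v := by
  letI := Fintype.ofFinite R
  rw [avg_apply]
  have h1 : ∑ r : R, ρ (r : G) v = (Nat.card R : ZMod 3) • v := by
    have h2 : ∀ r : R, ρ (r : G) v = v := fun r => hv r r.2
    simp only [h2, Finset.sum_const, Finset.card_univ, Nat.card_eq_fintype_card]
    rw [← Nat.cast_smul_eq_nsmul (ZMod 3)]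
  rw [h1, smul_smul, inv_mul_cancel₀ h.card_ne, one_smul]

theorem W_act {r : G} (hr : r ∈ R) {v : E} (hv : v ∈ W ρ R) : ρ r v ∈ W ρ R := by
  rw [mem_W] at *
  rw [avg_act hr, hv]

theorem W_b (h : Sett ρ R b) {v : E} (hv : v ∈ W ρ R) : ρ b v ∈ W ρ R := by
  rw [mem_W] at *
  rw [← b_avg h, hv, map_zero]

theorem F1_b (h : Sett ρ R b) {v : E} (hv : v ∈ F1 ρ R) : ρ b v ∈ F1 ρ R := by
  intro r hr
  have h1 := hv _ (h.nb' hr)
  have h2 : ρ r (ρ b v) = ρ b (ρ (b⁻¹ * r * b) v) := by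
    simp only [act_mul, act_act_inv]
  rw [h2, h1]

theorem W_inf_F1 (h : Sett ρ R b) : W ρ R ⊓ F1 ρ R = ⊥ := by
  rw [eq_bot_iff]
  rintro v ⟨h1, h2⟩
  have h3 := avg_of_F1 h h2
  rw [mem_W.mp h1] at h3
  exact h3.symm

theorem W_sup_F1 (h : Sett ρ R b) : W ρ R ⊔ F1 ρ R = ⊤ := by
  rw [eq_top_iff]
  intro v _
  have h1 : v = (v - avg ρ R v) + avg ρ R v := by abel
  rw [h1]
  refine Submodule.add_mem_sup ?_ (avg_mem_F1 v)
  rw [mem_W, map_sub, avg_of_F1 h (avg_mem_F1 v), sub_self]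

theorem decomp (h : Sett ρ R b) (v : E) : ∃ w f, w ∈ W ρ R ∧ f ∈ F1 ρ R ∧ v = w + f := by
  refine ⟨v - avg ρ R v, avg ρ R v, ?_, avg_mem_F1 v, by abel⟩
  rw [mem_W, map_sub, avg_of_F1 h (avg_mem_F1 v), sub_self]

/-- An element trivial on `W` and on `F1` is trivial. -/
theorem eq_one_of (h : Sett ρ R b) {g : G} (h1 : ∀ w ∈ W ρ R, ρ g w = w)
    (h2 : ∀ f ∈ F1 ρ R, ρ g f = f) : g = 1 := by
  apply h.faith
  rw [map_one]
  ext v
  obtain ⟨w, f, hw, hf, rfl⟩ := h.decomp v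
  rw [map_add, h1 w hw, h2 f hf, Module.End.one_apply]

/-- Elements of `R` agreeing on `W` are equal. -/
theorem eq_of_W (h : Sett ρ R b) {g g' : G} (hg : g ∈ R) (hg' : g' ∈ R)
    (h1 : ∀ w ∈ W ρ R, ρ g w = ρ g' w) : g = g' := by
  have : g⁻¹ * g' = 1 := by
    apply h.eq_one_of
    · intro w hw
      rw [act_mul, ← h1 w hw, act_inv_act]
    · intro f hf
      exact hf _ (R.mul_mem (R.inv_mem hg) hg')
  rw [inv_mul_eq_one] at this
  exact this

end Avg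

end Sett

section Data

variable [Finite G] [Finite E]

open Sett

variable {t₁ t₂ t₃ : G} {e₁ e₂ e₃ : E}

/-- The span of the `R`-translates of the frame. -/
def Y (ρ : Representation (ZMod 3) G E) (R : Subgroup G) (e₁ e₂ e₃ : E) : Submodule (ZMod 3) E :=
  Submodule.span (ZMod 3) {x | ∃ r ∈ R, x = ρ r e₁ ∨ x = ρ r e₂ ∨ x = ρ r e₃}

theorem e_mem_Y : e₁ ∈ Y ρ R e₁ e₂ e₃ ∧ e₂ ∈ Y ρ R e₁ e₂ e₃ ∧ e₃ ∈ Y ρ R e₁ e₂ e₃ := by
  refine ⟨Submodule.subset_span ⟨1, R.one_mem, ?_⟩, Submodule.subset_span ⟨1, R.one_mem, ?_⟩,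
    Submodule.subset_span ⟨1, R.one_mem, ?_⟩⟩
  · left; exact (act_one ρ e₁).symm
  · right; left; exact (act_one ρ e₂).symm
  · right; right; exact (act_one ρ e₃).symm

theorem Y_act {r : G} (hr : r ∈ R) {v : E} (hv : v ∈ Y ρ R e₁ e₂ e₃) : ρ r v ∈ Y ρ R e₁ e₂ e₃ := by
  induction hv using Submodule.span_induction with
  | mem x hx =>
    obtain ⟨s, hs, hx⟩ := hx
    apply Submodule.subset_span
    refine ⟨r * s, R.mul_mem hr hs, ?_⟩
    rcases hx with rfl | rfl | rfl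
    · left; rw [act_mul]
    · right; left; rw [act_mul]
    · right; right; rw [act_mul]
  | zero => rw [map_zero]; exact Submodule.zero_mem _
  | add x y _ _ hx hy => rw [map_add]; exact Submodule.add_mem _ hx hy
  | smul a x _ hx => rw [map_smul]; exact Submodule.smul_mem _ _ hx

theorem Y_b (h : Sett ρ R b) (hD : FG ρ b t₁ t₂ t₃ e₁ e₂ e₃) {v : E} (hv : v ∈ Y ρ R e₁ e₂ e₃) :
    ρ b v ∈ Y ρ R e₁ e₂ e₃ := by
  induction hv using Submodule.span_induction with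
  | mem x hx =>
    obtain ⟨s, hs, hx⟩ := hx
    apply Submodule.subset_span
    refine ⟨b * s * b⁻¹, h.nb _ hs, ?_⟩
    have h1 : ∀ y, ρ b (ρ s y) = ρ (b * s * b⁻¹) (ρ b y) := by
      intro y
      simp only [act_mul, act_inv_act]
    rcases hx with rfl | rfl | rfl
    · right; left; rw [h1, hD.be1]
    · right; right; rw [h1, hD.be2]
    · left; rw [h1, hD.be3]
  | zero => rw [map_zero]; exact Submodule.zero_mem _
  | add x y _ _ hx hy => rw [map_add]; exact Submodule.add_mem _ hx hy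
  | smul a x _ hx => rw [map_smul]; exact Submodule.smul_mem _ _ hx

/-- The commutators with `b` lie on the frame. -/
theorem b_sub_mem (hD : FG ρ b t₁ t₂ t₃ e₁ e₂ e₃) (v : E) :
    ∃ a₁ a₂ a₃ : ZMod 3, ρ b v - v = a₁ • e₁ + a₂ • e₂ + a₃ • e₃ := by
  obtain ⟨c, a₁, a₂, a₃, rfl, hc1, hc2⟩ := hD.span v
  have hb := hD.bfix c hc1 hc2
  refine ⟨a₃ - a₁, a₁ - a₂, a₂ - a₃, ?_⟩
  simp only [map_add, map_smul, hb, hD.be1, hD.be2, hD.be3, sub_smul]
  abel

theorem b_sub_Y (hD : FG ρ b t₁ t₂ t₃ e₁ e₂ e₃) (v : E) : ρ b v - v ∈ Y ρ R e₁ e₂ e₃ := by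
  obtain ⟨a₁, a₂, a₃, h⟩ := b_sub_mem hD v
  rw [h]
  obtain ⟨h1, h2, h3⟩ := e_mem_Y (ρ := ρ) (R := R) (e₁ := e₁) (e₂ := e₂) (e₃ := e₃)
  exact Submodule.add_mem _ (Submodule.add_mem _ (Submodule.smul_mem _ _ h1)
    (Submodule.smul_mem _ _ h2)) (Submodule.smul_mem _ _ h3)

/-- `R` is trivial modulo the span of the translates. -/
theorem act_sub_Y (h : Sett ρ R b) (hD : FG ρ b t₁ t₂ t₃ e₁ e₂ e₃) {r : G} (hr : r ∈ R) (v : E) :
    ρ r v - v ∈ Y ρ R e₁ e₂ e₃ := by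
  let YY := Y ρ R e₁ e₂ e₃
  let L : Subgroup G :=
    { carrier := {g | (∀ y ∈ YY, ρ g y ∈ YY) ∧ (∀ y ∈ YY, ρ g⁻¹ y ∈ YY) ∧ ∀ x, ρ g x - x ∈ YY}
      mul_mem' := by
        rintro x y ⟨h1, h2, h3⟩ ⟨h4, h5, h6⟩
        refine ⟨?_, ?_, ?_⟩
        · intro w hw
          rw [act_mul]
          exact h1 _ (h4 w hw)
        · intro w hw
          rw [mul_inv_rev, act_mul]
          exact h5 _ (h2 w hw)
        · intro u
          rw [act_mul]
          have h7 : ρ x (ρ y u) - u = ρ x (ρ y u - u) + (ρ x u - u) := by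
            rw [map_sub]; abel
          rw [h7]
          exact Submodule.add_mem _ (h1 _ (h6 u)) (h3 u)
      one_mem' := by
        refine ⟨?_, ?_, ?_⟩
        · intro w hw
          rwa [act_one]
        · intro w hw
          rwa [inv_one, act_one]
        · intro u
          rw [act_one, sub_self]
          exact Submodule.zero_mem _
      inv_mem' := by
        rintro x ⟨h1, h2, h3⟩
        refine ⟨h2, ?_, ?_⟩
        · rwa [inv_inv]
        · intro u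
          have h7 : ρ x⁻¹ u - u = -ρ x⁻¹ (ρ x u - u) := by
            rw [map_sub, act_inv_act]; abel
          rw [h7]
          exact Submodule.neg_mem _ (h2 _ (h3 u)) }
  have hL : R ≤ L := by
    apply h.gen
    intro s hs
    have hsY : ∀ y ∈ YY, ρ s y ∈ YY := fun y hy => Y_act hs hy
    have hsY' : ∀ y ∈ YY, ρ s⁻¹ y ∈ YY := fun y hy => Y_act (R.inv_mem hs) hy
    have hbY : ∀ y ∈ YY, ρ b y ∈ YY := fun y hy => Y_b h hD hy
    have hbY' : ∀ y ∈ YY, ρ b⁻¹ y ∈ YY := by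
      intro y hy
      rw [h.binv, act_mul]
      exact hbY _ (hbY _ hy)
    refine ⟨?_, ?_, ?_⟩
    · intro y hy
      simp only [act_mul]
      exact hsY _ (hbY _ (hsY' _ (hbY' _ hy)))
    · intro y hy
      have : (s * b * s⁻¹ * b⁻¹)⁻¹ = b * s * b⁻¹ * s⁻¹ := by group
      rw [this]
      simp only [act_mul]
      exact hbY _ (hsY _ (hbY' _ (hsY' _ hy)))
    · intro u
      simp only [act_mul]
      have h1 := b_sub_Y (R := R) hD (ρ s⁻¹ (ρ b⁻¹ u))
      have h2 := b_sub_Y (R := R) hD (ρ b⁻¹ u)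
      have h3 : ρ s (ρ b (ρ s⁻¹ (ρ b⁻¹ u))) - u =
          ρ s (ρ b (ρ s⁻¹ (ρ b⁻¹ u)) - ρ s⁻¹ (ρ b⁻¹ u)) - (ρ b (ρ b⁻¹ u) - ρ b⁻¹ u) := by
        rw [map_sub, act_act_inv, act_act_inv]; abel
      rw [h3]
      exact Submodule.sub_mem _ (hsY _ h1) h2
  exact (hL hr).2.2 v

variable (h : Sett ρ R b)

include h in
/-- Vectors of the data lie in `W` when the involutions lie in `R`. -/
theorem e_mem_W (hD : FG ρ b t₁ t₂ t₃ e₁ e₂ e₃) (ht1 : t₁ ∈ R) :
    e₁ ∈ W ρ R ∧ e₂ ∈ W ρ R ∧ e₃ ∈ W ρ R := by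
  have ht2 : t₂ ∈ R := by rw [← hD.bt1]; exact h.nb _ ht1
  have ht3 : t₃ ∈ R := by rw [← hD.bt2]; exact h.nb _ ht2
  have key : ∀ {x : E} {t : G}, t ∈ R → ρ t x = -x → x ∈ W ρ R := by
    intro x t ht hx
    rw [mem_W]
    have h1 := avg_act (ρ := ρ) ht x
    rw [hx, map_neg] at h1
    exact eq_zero_of_eq_neg h1.symm
  exact ⟨key ht2 hD.t2e1, key ht1 hD.t1e2, key ht1 hD.t1e3⟩

include h in
theorem Y_le_W (hD : FG ρ b t₁ t₂ t₃ e₁ e₂ e₃) (ht1 : t₁ ∈ R) : Y ρ R e₁ e₂ e₃ ≤ W ρ R := by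
  obtain ⟨h1, h2, h3⟩ := e_mem_W h hD ht1
  apply Submodule.span_le.mpr
  rintro x ⟨r, hr, rfl | rfl | rfl⟩
  · exact W_act hr h1
  · exact W_act hr h2
  · exact W_act hr h3

include h in
theorem W_le_Y (hD : FG ρ b t₁ t₂ t₃ e₁ e₂ e₃) : W ρ R ≤ Y ρ R e₁ e₂ e₃ := by
  letI := Fintype.ofFinite R
  intro w hw
  have h1 := mem_W.mp hw
  rw [avg_apply] at h1
  have h2 : w = w - (Nat.card R : ZMod 3)⁻¹ • ∑ r : R, ρ (r : G) w := by rw [h1, sub_zero]
  have h3 : w - (Nat.card R : ZMod 3)⁻¹ • ∑ r : R, ρ (r : G) w =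
      (Nat.card R : ZMod 3)⁻¹ • ∑ r : R, (w - ρ (r : G) w) := by
    rw [Finset.sum_sub_distrib, smul_sub]
    congr 1
    simp only [Finset.sum_const, Finset.card_univ, Nat.card_eq_fintype_card]
    rw [← Nat.cast_smul_eq_nsmul (ZMod 3), smul_smul, ← Nat.card_eq_fintype_card,
      inv_mul_cancel₀ h.card_ne, one_smul]
  rw [h2, h3]
  refine Submodule.smul_mem _ _ (Submodule.sum_mem _ ?_)
  intro r _
  have := act_sub_Y h hD r.2 w
  rw [← neg_sub]
  exact Submodule.neg_mem _ this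

include h in
theorem W_eq_Y (hD : FG ρ b t₁ t₂ t₃ e₁ e₂ e₃) (ht1 : t₁ ∈ R) : W ρ R = Y ρ R e₁ e₂ e₃ :=
  le_antisymm (W_le_Y h hD) (Y_le_W h hD ht1)

/-- A projection onto an eigenline stays in an invariant submodule. -/
theorem coord_mem (hD : FG ρ b t₁ t₂ t₃ e₁ e₂ e₃) {N : Submodule (ZMod 3) E}
    (h1 : ∀ v ∈ N, ρ t₁ v ∈ N) (h2 : ∀ v ∈ N, ρ t₂ v ∈ N) (h3 : ∀ v ∈ N, ρ t₃ v ∈ N)
    {c : E} {a₁ a₂ a₃ : ZMod 3} (hc1 : ρ t₁ c = c) (hc2 : ρ t₂ c = c)
    (hv : c + a₁ • e₁ + a₂ • e₂ + a₃ • e₃ ∈ N) : a₁ • e₁ ∈ N := by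
  have h4 := proj_one (ρ := ρ) hD.t12 (w₁ := a₁ • e₁) (w₂ := a₂ • e₂) (w₃ := a₃ • e₃) (c := c)
    (by rw [map_smul, hD.t1e1]) (by rw [map_smul, hD.t2e1, smul_neg])
    (by rw [map_smul, hD.t1e2, smul_neg]) (by rw [map_smul, hD.t2e2])
    (by rw [map_smul, hD.t1e3, smul_neg]) (by rw [map_smul, hD.t2e3, smul_neg])
    hc1 hc2
  have h5 : a₁ • e₁ + a₂ • e₂ + a₃ • e₃ + c = c + a₁ • e₁ + a₂ • e₂ + a₃ • e₃ := by abel
  rw [h5] at h4
  rw [← h4]
  exact Submodule.sub_mem _ (Submodule.sub_mem _ (Submodule.add_mem _ hv (h1 _ hv)) (h2 _ hv)) (h3 _ hv)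

include h in
/-- Irreducibility. -/
theorem irred (hD : FG ρ b t₁ t₂ t₃ e₁ e₂ e₃) (ht1 : t₁ ∈ R) {N : Submodule (ZMod 3) E}
    (hNW : N ≤ W ρ R) (hNR : ∀ r ∈ R, ∀ v ∈ N, ρ r v ∈ N) (hNb : ∀ v ∈ N, ρ b v ∈ N)
    (hne : N ≠ ⊥) : W ρ R ≤ N := by
  have ht2 : t₂ ∈ R := by rw [← hD.bt1]; exact h.nb _ ht1
  have ht3 : t₃ ∈ R := by rw [← hD.bt2]; exact h.nb _ ht2
  -- some element of `N` is not fixed by the four-group
  have hex : ∃ v ∈ N, ¬ (ρ t₁ v = v ∧ ρ t₂ v = v) := by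
    by_contra hall
    push Not at hall
    have hbN : ∀ v ∈ N, ρ b v = v := fun v hv => hD.bfix v (hall v hv).1 (hall v hv).2
    have hRN := h.triv_of_b N hNR hbN
    apply hne
    rw [eq_bot_iff]
    intro v hv
    have h1 : v ∈ W ρ R ⊓ F1 ρ R := ⟨hNW hv, fun r hr => hRN r hr v hv⟩
    rw [W_inf_F1 h] at h1
    exact h1
  obtain ⟨v, hvN, hv⟩ := hex
  obtain ⟨c, a₁, a₂, a₃, rfl, hc1, hc2⟩ := hD.span v
  have n1 := hNR _ ht1
  have n2 := hNR _ ht2
  have n3 := hNR _ ht3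
  have unsc : ∀ {a : ZMod 3} {x : E}, a ≠ 0 → a • x ∈ N → x ∈ N := by
    intro a x ha hx
    have := Submodule.smul_mem N a⁻¹ hx
    rwa [smul_smul, inv_mul_cancel₀ ha, one_smul] at this
  have he : e₁ ∈ N := by
    by_cases h1 : a₁ = 0
    · by_cases h2 : a₂ = 0
      · by_cases h3 : a₃ = 0
        · exfalso
          apply hv
          subst h1 h2 h3
          simp only [zero_smul, add_zero]
          exact ⟨hc1, hc2⟩
        · have h4 : c + a₃ • e₃ + a₁ • e₁ + a₂ • e₂ ∈ N := by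
            have : c + a₃ • e₃ + a₁ • e₁ + a₂ • e₂ = c + a₁ • e₁ + a₂ • e₂ + a₃ • e₃ := by abel
            rwa [this]
          have h5 := coord_mem hD.shift.shift n3 n1 n2 (hD.t3c hc1 hc2) hc1 h4
          have h6 := unsc h3 h5
          have := hNb _ h6
          rwa [hD.be3] at this
      · have h4 : c + a₂ • e₂ + a₃ • e₃ + a₁ • e₁ ∈ N := by
          have : c + a₂ • e₂ + a₃ • e₃ + a₁ • e₁ = c + a₁ • e₁ + a₂ • e₂ + a₃ • e₃ := by abel
          rwa [this]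
        have h5 := coord_mem hD.shift n2 n3 n1 hc2 (hD.t3c hc1 hc2) h4
        have h6 := unsc h2 h5
        have h7 := hNb _ h6
        rw [hD.be2] at h7
        have := hNb _ h7
        rwa [hD.be3] at this
    · exact unsc h1 (coord_mem hD n1 n2 n3 hc1 hc2 hvN)
  have he2 : e₂ ∈ N := by
    have := hNb _ he
    rwa [hD.be1] at this
  have he3 : e₃ ∈ N := by
    have := hNb _ he2
    rwa [hD.be2] at this
  rw [W_eq_Y h hD ht1]
  apply Submodule.span_le.mpr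
  rintro x ⟨r, hr, rfl | rfl | rfl⟩
  · exact hNR r hr _ he
  · exact hNR r hr _ he2
  · exact hNR r hr _ he3

include h in
/-- A central element with an eigenvector in `W` acts as a scalar on `W`. -/
theorem scalar_of_central (hD : FG ρ b t₁ t₂ t₃ e₁ e₂ e₃) (ht1 : t₁ ∈ R) {y : G}
    (hyR : ∀ r ∈ R, y * r = r * y) (hyb : y * b = b * y) {s : ZMod 3} {v : E} (hv : v ∈ W ρ R)
    (hv0 : v ≠ 0) (hys : ρ y v = s • v) (hyW : ∀ w ∈ W ρ R, ρ y w ∈ W ρ R) :
    ∀ w ∈ W ρ R, ρ y w = s • w := by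
  let N : Submodule (ZMod 3) E := W ρ R ⊓ LinearMap.ker (ρ y - s • (1 : E →ₗ[ZMod 3] E))
  have memN : ∀ w, w ∈ N ↔ w ∈ W ρ R ∧ ρ y w = s • w := by
    intro w
    simp only [N, Submodule.mem_inf, LinearMap.mem_ker, LinearMap.sub_apply, LinearMap.smul_apply,
      Module.End.one_apply, sub_eq_zero]
  have hN : W ρ R ≤ N := by
    apply irred h hD ht1
    · exact fun w hw => ((memN w).1 hw).1
    · intro r hr w hw
      obtain ⟨h1, h2⟩ := (memN w).1 hw
      refine (memN _).2 ⟨W_act hr h1, ?_⟩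
      rw [← act_mul, hyR r hr, act_mul, h2, map_smul]
    · intro w hw
      obtain ⟨h1, h2⟩ := (memN w).1 hw
      refine (memN _).2 ⟨W_b h h1, ?_⟩
      rw [← act_mul, hyb, act_mul, h2, map_smul]
    · intro h0
      have : v ∈ N := (memN v).2 ⟨hv, hys⟩
      rw [h0] at this
      exact hv0 this
  exact fun w hw => ((memN w).1 (hN hw)).2

end Data

end Cfsg.Agent.Lib.CubC
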