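import Mathlib
import Cfsg.Agent.Lib.CubC

/-!
# Elements of order prime to six, and abelian normal subgroups of order prime to six
-/

set_option autoImplicit false
set_option linter.unusedSectionVars false
set_option linter.unusedVariables false

namespace Cfsg.Agent.Lib.CubD

open Cfsg.Agent.Lib.CubA Cfsg.Agent.Lib.CubB Cfsg.Agent.Lib.CubC Cfsg.Agent.Lib.CubC.Sett

variable {G : Type*} [Group G] {E : Type*} [AddCommGroup E] [Module (ZMod 3) E]
variable {ρ : Representation (ZMod 3) G E}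

theorem iter_eq (g : G) (i : ℕ) (x : E) : (fun v => ρ g v)^[i] x = ρ (g ^ i) x := by
  induction i generalizing x with
  | zero => simp
  | succ i ih =>
    rw [Function.iterate_succ_apply', ih, pow_succ', act_mul]

/-- An element of order prime to six fixes an invariant subspace of order at most nine. -/
theorem fix_of_small [Finite E] {g : G} {n : ℕ} (hn : g ^ n = 1) (hn0 : 0 < n) (h6 : n.Coprime 6)
    {U : Submodule (ZMod 3) E} (hU : Nat.card U ≤ 9) (hg : ∀ v ∈ U, ρ g v ∈ U) :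
    ∀ v ∈ U, ρ g v = v := by
  intro v hv
  by_cases hv0 : v = 0
  · rw [hv0, map_zero]
  let f : E → E := fun v => ρ g v
  have hit : ∀ (i : ℕ) x, f^[i] x = ρ (g ^ i) x := fun i x => iter_eq g i x
  have hper : Function.IsPeriodicPt f n v := by
    show f^[n] v = v
    rw [hit, hn, act_one]
  set k := Function.minimalPeriod f v with hk
  have hkn : k ∣ n := hper.minimalPeriod_dvd
  have hk0 : 0 < k := hper.minimalPeriod_pos hn0
  have hk6 : k.Coprime 6 := Nat.Coprime.coprime_dvd_left hkn h6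
  have hk2 : k.Coprime 2 := Nat.Coprime.coprime_dvd_right (by norm_num) hk6
  have hkk : f^[k] v = v := Function.iterate_minimalPeriod
  by_cases hk1 : k = 1
  · have : Function.IsFixedPt f v := by
      rw [← Function.minimalPeriod_eq_one_iff_isFixedPt]
      exact hk1
    exact this
  exfalso
  have hk5 : 5 ≤ k := by
    by_contra hlt
    push Not at hlt
    have h234 : k = 2 ∨ k = 3 ∨ k = 4 := by omega
    rcases h234 with h | h | h <;> (rw [h] at hk6; exact absurd hk6 (by norm_num))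
  have hmem : ∀ i, f^[i] v ∈ U := by
    intro i
    induction i with
    | zero => exact hv
    | succ i ih =>
      rw [Function.iterate_succ_apply']
      exact hg _ ih
  have hnz : ∀ i, f^[i] v ≠ 0 := by
    intro i h0
    rw [hit] at h0
    apply hv0
    exact act_inj ρ (g ^ i) (h0.trans (map_zero _).symm)
  have hinjI : ∀ {i j : ℕ}, i < k → j < k → f^[i] v = f^[j] v → i = j := by
    intro i j hi hj hij
    exact Function.iterate_injOn_Iio_minimalPeriod hi hj hij
  have hcross : ∀ {i j : ℕ}, i < k → j < k → f^[i] v ≠ -f^[j] v := by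
    intro i j hi hj hij
    set m := k - i + j with hm
    have h1 : f^[m] v = -v := by
      have h2 : f^[k - i] (f^[i] v) = v := by
        rw [← Function.iterate_add_apply, Nat.sub_add_cancel hi.le, hkk]
      have h3 : f^[k - i] (-f^[j] v) = -f^[k - i + j] v := by
        rw [Function.iterate_add_apply, hit, hit, hit, map_neg]
      rw [hij, h3] at h2
      rw [neg_eq_iff_eq_neg] at h2
      exact h2
    have h4 : f^[m + m] v = v := by
      rw [Function.iterate_add_apply, h1, hit, map_neg, ← hit, h1, neg_neg]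
    have h5 : k ∣ m + m := by
      have : Function.IsPeriodicPt f (m + m) v := h4
      exact this.minimalPeriod_dvd
    have h6' : k ∣ m := by
      have h7 : k ∣ 2 * m := by rwa [two_mul]
      exact hk2.dvd_of_dvd_mul_left h7
    have h8 : f^[m] v = v := by
      obtain ⟨q, hq⟩ := h6'
      have h9 : Function.IsPeriodicPt f (k * q) v :=
        (Function.isPeriodicPt_minimalPeriod f v).mul_const q
      rw [hq]
      exact h9
    rw [h8] at h1
    exact hv0 (eq_zero_of_eq_neg h1)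
  let φ : Option (Fin k ⊕ Fin k) → U := fun x => match x with
    | none => 0
    | some (Sum.inl i) => ⟨f^[i] v, hmem i⟩
    | some (Sum.inr i) => ⟨-f^[i] v, U.neg_mem (hmem i)⟩
  have hφ : Function.Injective φ := by
    rintro (_ | i | i) (_ | j | j) hij
    · rfl
    · exact absurd (congrArg Subtype.val hij).symm (hnz j)
    · exfalso
      have h1 : (0 : E) = -f^[j] v := congrArg Subtype.val hij
      exact hnz j (neg_eq_zero.mp h1.symm)
    · exact absurd (congrArg Subtype.val hij) (hnz i)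
    · have h1 : f^[i] v = f^[j] v := congrArg Subtype.val hij
      have := hinjI i.2 j.2 h1
      rw [Fin.ext this]
    · exact absurd (congrArg Subtype.val hij) (hcross i.2 j.2)
    · exfalso
      have h1 : -f^[i] v = (0 : E) := congrArg Subtype.val hij
      exact hnz i (neg_eq_zero.mp h1)
    · exfalso
      have h1 : -f^[i] v = f^[j] v := congrArg Subtype.val hij
      exact hcross j.2 i.2 h1.symm
    · have h1 : -f^[i] v = -f^[j] v := congrArg Subtype.val hij
      have := hinjI i.2 j.2 (neg_injective h1)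
      rw [Fin.ext this]
  have h1 := Nat.card_le_card_of_injective φ hφ
  have h2 : Nat.card (Option (Fin k ⊕ Fin k)) = k + k + 1 := by
    simp [Nat.card_eq_fintype_card]
  rw [h2] at h1
  omega

variable {b t₁ t₂ t₃ : G} {e₁ e₂ e₃ : E}

/-- Vectors negated by `t₁` lie on two lines. -/
theorem card_neg_le [Finite E] (hD : FG ρ b t₁ t₂ t₃ e₁ e₂ e₃) :
    Nat.card (LinearMap.ker (ρ t₁ + 1)) ≤ 9 := by
  let φ : ZMod 3 × ZMod 3 → E := fun p => p.1 • e₂ + p.2 • e₃
  have hcov : ∀ x : LinearMap.ker (ρ t₁ + 1), ∃ p, φ p = x := by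
    rintro ⟨x, hx⟩
    have hx' : ρ t₁ x = -x := by
      have : (ρ t₁ + 1) x = 0 := hx
      rw [LinearMap.add_apply, Module.End.one_apply] at this
      exact eq_neg_of_add_eq_zero_left this
    obtain ⟨c, a₁, a₂, a₃, hv, hc1, hc2⟩ := hD.span x
    have h1 : ρ t₁ x = c + a₁ • e₁ + (-a₂) • e₂ + (-a₃) • e₃ := by
      rw [hv]
      simp only [map_add, map_smul, hc1, hD.t1e1, hD.t1e2, hD.t1e3, smul_neg, neg_smul]
    have h2 : -x = (-c) + (-a₁) • e₁ + (-a₂) • e₂ + (-a₃) • e₃ := by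
      rw [hv]
      simp only [neg_add_rev, neg_smul]
      abel
    have h3 := h1.symm.trans (hx'.trans h2)
    have hc : c = 0 := by
      have := hD.coord_c hc1 hc2 (by rw [map_neg, hc1]) (by rw [map_neg, hc2]) h3
      exact eq_zero_of_eq_neg this
    have ha : a₁ = 0 := by
      have := hD.coord₁ hc1 hc2 (by rw [map_neg, hc1]) (by rw [map_neg, hc2]) h3
      exact zm_eq_zero this.symm
    refine ⟨(a₂, a₃), ?_⟩
    show a₂ • e₂ + a₃ • e₃ = x
    rw [hv, hc, ha]
    simp
  choose ψ hψ using hcov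
  have hinj : Function.Injective ψ := by
    intro x y hxy
    apply Subtype.ext
    rw [← hψ x, ← hψ y, hxy]
  have h1 := Nat.card_le_card_of_injective ψ hinj
  have h2 : Nat.card (ZMod 3 × ZMod 3) = 9 := by
    rw [Nat.card_prod]; simp
  rwa [h2] at h1

/-- The four-group is centralized as soon as one involution is: elements of order prime to six. -/
theorem comm_step [Finite G] [Finite E] (faith : Function.Injective ρ)
    (hD : FG ρ b t₁ t₂ t₃ e₁ e₂ e₃) {a : G}
    (ha : a * t₁ = t₁ * a) (h6 : (orderOf (t₂ * a * t₂ * a⁻¹)).Coprime 6) : a * t₂ = t₂ * a := by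
  set u := t₂ * a * t₂ * a⁻¹ with hu
  have hc12 : t₁ * t₂ = t₂ * t₁ := by rw [hD.t12, hD.t21]
  have ha' : a⁻¹ * t₁ = t₁ * a⁻¹ := by
    calc a⁻¹ * t₁ = a⁻¹ * (t₁ * a) * a⁻¹ := by group
      _ = a⁻¹ * (a * t₁) * a⁻¹ := by rw [ha]
      _ = _ := by group
  have hut1 : u * t₁ = t₁ * u := by
    calc u * t₁ = t₂ * a * t₂ * (a⁻¹ * t₁) := by rw [hu]; group
      _ = t₂ * a * t₂ * (t₁ * a⁻¹) := by rw [ha']
      _ = t₂ * a * (t₂ * t₁) * a⁻¹ := by group
      _ = t₂ * a * (t₁ * t₂) * a⁻¹ := by rw [hc12]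
      _ = t₂ * (a * t₁) * t₂ * a⁻¹ := by group
      _ = t₂ * (t₁ * a) * t₂ * a⁻¹ := by rw [ha]
      _ = (t₂ * t₁) * a * t₂ * a⁻¹ := by group
      _ = (t₁ * t₂) * a * t₂ * a⁻¹ := by rw [hc12]
      _ = t₁ * u := by rw [hu]; group
  have hun : u ^ orderOf u = 1 := pow_orderOf_eq_one u
  have hn0 : 0 < orderOf u := orderOf_pos u
  -- the negative part
  have hneg : ∀ x, ρ t₁ x = -x → ρ u x = x := by
    intro x hx
    have hxm : x ∈ LinearMap.ker (ρ t₁ + 1) := by
      rw [LinearMap.mem_ker, LinearMap.add_apply, Module.End.one_apply, hx, neg_add_cancel]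
    refine fix_of_small hun hn0 h6 (card_neg_le hD) ?_ x hxm
    intro v hv
    have hv' : ρ t₁ v = -v := by
      have : (ρ t₁ + 1) v = 0 := hv
      rw [LinearMap.add_apply, Module.End.one_apply] at this
      exact eq_neg_of_add_eq_zero_left this
    rw [LinearMap.mem_ker, LinearMap.add_apply, Module.End.one_apply, ← act_mul, ← hut1, act_mul, hv',
      map_neg, neg_add_cancel]
  -- structure of the positive part
  have hpos : ∀ x, ρ t₁ x = x → ∃ κ : ZMod 3, ρ t₂ x = x + κ • e₁ := by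
    intro x hx
    obtain ⟨c, a₁, a₂, a₃, hv, hc1, hc2⟩ := hD.span x
    have h1 : ρ t₁ x = c + a₁ • e₁ + (-a₂) • e₂ + (-a₃) • e₃ := by
      rw [hv]
      simp only [map_add, map_smul, hc1, hD.t1e1, hD.t1e2, hD.t1e3, smul_neg, neg_smul]
    have h3 := h1.symm.trans (hx.trans hv)
    have ha2 : a₂ = 0 := zm_eq_zero (hD.coord₂ hc1 hc2 hc1 hc2 h3)
    have ha3 : a₃ = 0 := zm_eq_zero (hD.coord₃ hc1 hc2 hc1 hc2 h3)
    refine ⟨a₁, ?_⟩
    rw [hv, ha2, ha3]
    simp only [zero_smul, add_zero, map_add, map_smul, hc2, hD.t2e1, smul_neg]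
    have h4 := three_add (a₁ • e₁)
    have h5 : -(a₁ • e₁) = a₁ • e₁ + a₁ • e₁ := neg_eq_add _
    rw [h5]; abel
  have hae : ρ t₁ (ρ a e₁) = ρ a e₁ := by
    rw [← act_mul, ← ha, act_mul, hD.t1e1]
  obtain ⟨κ', hκ'⟩ := hpos _ hae
  have hcomp : ∀ x, ρ t₁ x = x → ∃ κ₁ κ₂ : ZMod 3, ρ u x = x + κ₁ • e₁ + κ₂ • ρ a e₁ := by
    intro x hx
    obtain ⟨κ₁, h1⟩ := hpos x hx
    have hxa : ρ t₁ (ρ a⁻¹ x) = ρ a⁻¹ x := by
      rw [← act_mul, ← ha', act_mul, hx]
    obtain ⟨κ₂, h2⟩ := hpos _ hxa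
    refine ⟨κ₁ + κ₂ * κ', κ₂, ?_⟩
    have h3 : ρ u x = ρ t₂ (ρ a (ρ t₂ (ρ a⁻¹ x))) := by
      rw [hu]; simp only [act_mul]
    rw [h3, h2, map_add, act_act_inv, map_add, map_smul, map_smul, h1, hκ', add_smul, mul_smul,
      smul_add]
    abel
  let U : Submodule (ZMod 3) E := Submodule.span (ZMod 3) {e₁, ρ a e₁}
  have hU1 : ∀ y ∈ U, ρ t₁ y = y := by
    intro y hy
    obtain ⟨p, q, rfl⟩ := Submodule.mem_span_pair.mp hy
    simp only [map_add, map_smul, hD.t1e1, hae]
  have he1U : e₁ ∈ U := Submodule.subset_span (by simp)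
  have hae1U : ρ a e₁ ∈ U := Submodule.subset_span (by simp)
  have hUcard : Nat.card U ≤ 9 := by
    let φ : ZMod 3 × ZMod 3 → U := fun p => ⟨p.1 • e₁ + p.2 • ρ a e₁,
      Submodule.add_mem _ (Submodule.smul_mem _ _ he1U) (Submodule.smul_mem _ _ hae1U)⟩
    have hφ : Function.Surjective φ := by
      rintro ⟨y, hy⟩
      obtain ⟨p, q, hpq⟩ := Submodule.mem_span_pair.mp hy
      exact ⟨(p, q), Subtype.ext hpq⟩
    have h1 := Nat.card_le_card_of_surjective φ hφ
    have h2 : Nat.card (ZMod 3 × ZMod 3) = 9 := by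
      rw [Nat.card_prod]; simp
    rwa [h2] at h1
  have hUinv : ∀ y ∈ U, ρ u y ∈ U := by
    intro y hy
    obtain ⟨κ₁, κ₂, h1⟩ := hcomp y (hU1 y hy)
    rw [h1]
    exact Submodule.add_mem _ (Submodule.add_mem _ hy (Submodule.smul_mem _ _ he1U))
      (Submodule.smul_mem _ _ hae1U)
  have hUfix := fix_of_small hun hn0 h6 hUcard hUinv
  have hposfix : ∀ x, ρ t₁ x = x → ρ u x = x := by
    intro x hx
    obtain ⟨κ₁, κ₂, h1⟩ := hcomp x hx
    set y := κ₁ • e₁ + κ₂ • ρ a e₁ with hy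
    have hyU : y ∈ U := Submodule.add_mem _ (Submodule.smul_mem _ _ he1U) (Submodule.smul_mem _ _ hae1U)
    have hy1 := hUfix y hyU
    have hux : ρ u x = x + y := by rw [h1, hy, add_assoc]
    have hUpow : ∀ k : ℕ, ρ (u ^ k) y = y := by
      intro k
      induction k with
      | zero => simp
      | succ k ih => rw [pow_succ, act_mul, hy1, ih]
    have hpow : ∀ k : ℕ, ρ (u ^ k) x = x + k • y := by
      intro k
      induction k with
      | zero => simp
      | succ k ih =>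
        rw [pow_succ, act_mul, hux, map_add, ih, hUpow k, succ_nsmul]
        abel
    have h2 := hpow (orderOf u)
    rw [hun, act_one] at h2
    have h3 : (orderOf u) • y = 0 := by
      have := h2
      rw [left_eq_add] at this
      exact this
    have h4 : ((orderOf u : ℕ) : ZMod 3) • y = 0 := by
      rw [Nat.cast_smul_eq_nsmul]
      exact h3
    have h5 : ((orderOf u : ℕ) : ZMod 3) ≠ 0 := by
      rw [Ne, ZMod.natCast_eq_zero_iff]
      intro hd
      have h7 : Nat.Coprime (orderOf u) 3 := Nat.Coprime.coprime_dvd_right (by norm_num) h6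
      have h8 := Nat.eq_one_of_dvd_coprimes h7 hd (dvd_refl 3)
      omega
    have h6' : y = 0 := by
      rcases smul_eq_zero.mp h4 with h | h
      · exact absurd h h5
      · exact h
    rw [hux, h6', add_zero]
  have hall : ρ u = 1 := by
    ext v
    rw [Module.End.one_apply]
    have h11 : ∀ w, ρ t₁ (ρ t₁ w) = w := fun w => by rw [← act_mul, hD.t1sq, act_one]
    have hv1 : ρ t₁ (v + ρ t₁ v) = v + ρ t₁ v := by
      rw [map_add, h11]; abel
    have hv2 : ρ t₁ (v - ρ t₁ v) = -(v - ρ t₁ v) := by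
      rw [map_sub, h11]; abel
    have h1 := hposfix _ hv1
    have h2 := hneg _ hv2
    have h3 : v = (v + ρ t₁ v) + (v + ρ t₁ v) + (v - ρ t₁ v) + (v - ρ t₁ v) := by
      have : (v + ρ t₁ v) + (v + ρ t₁ v) + (v - ρ t₁ v) + (v - ρ t₁ v) = v + v + v + v := by abel
      rw [this, four_smul_eq]
    rw [h3]
    simp only [map_add, h1, h2]
  have hu1 : u = 1 := faith (by rw [hall, map_one])
  have h7 : t₂ * a * t₂ = a := by
    have : t₂ * a * t₂ * a⁻¹ = 1 := hu1
    exact mul_inv_eq_one.mp this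
  calc a * t₂ = (t₂ * a * t₂) * t₂ := by rw [h7]
    _ = t₂ * a * (t₂ * t₂) := by group
    _ = t₂ * a := by rw [hD.t2sq, mul_one]

theorem ic_mul {t x y : G} (htt : t * t = 1) : t * (x * y) * t = (t * x * t) * (t * y * t) := by
  have h : t * x * t * (t * y * t) = t * x * (t * t) * y * t := by group
  rw [h, htt]; group

theorem ic_ic {t x : G} (htt : t * t = 1) : t * (t * x * t) * t = x := by
  have h : t * (t * x * t) * t = (t * t) * x * (t * t) := by group
  rw [h, htt]; group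

/-- No nontrivial abelian subgroup of order prime to six is normalized by `R` and `b`. -/
theorem no_abelian [Finite G] [Finite E] {R : Subgroup G} (h : Sett ρ R b)
    (hD : FG ρ b t₁ t₂ t₃ e₁ e₂ e₃) (ht1 : t₁ ∈ R) {A : Subgroup G} (hAR : A ≤ R)
    (hAn : ∀ r ∈ R, ∀ a ∈ A, r * a * r⁻¹ ∈ A) (hAb : ∀ a ∈ A, b * a * b⁻¹ ∈ A)
    (hAc : ∀ a ∈ A, ∀ a' ∈ A, a * a' = a' * a) (h6 : (Nat.card A).Coprime 6) : A = ⊥ := by
  have ht2 : t₂ ∈ R := by rw [← hD.bt1]; exact h.nb _ ht1
  have ht3 : t₃ ∈ R := by rw [← hD.bt2]; exact h.nb _ ht2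
  have hord : ∀ a ∈ A, (orderOf a).Coprime 6 := by
    intro a ha
    have h1 : orderOf (⟨a, ha⟩ : A) ∣ Nat.card A := orderOf_dvd_natCard _
    rw [Subgroup.orderOf_mk] at h1
    exact Nat.Coprime.coprime_dvd_left h1 h6
  have hodd : ∀ a ∈ A, a * a = 1 → a = 1 := by
    intro a ha haa
    have h1 : orderOf a ∣ 2 := orderOf_dvd_of_pow_eq_one (by rw [pow_two, haa])
    have h2 := hord a ha
    have h3 : Nat.Coprime (orderOf a) 2 := Nat.Coprime.coprime_dvd_right (by norm_num) h2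
    have h4 := Nat.eq_one_of_dvd_coprimes h3 (dvd_refl _) h1
    exact orderOf_eq_one_iff.mp h4
  have hsq : ∀ a ∈ A, ∀ a' ∈ A, a * a = a' * a' → a = a' := by
    intro a ha a' ha' he
    have h1 : (a * a'⁻¹) * (a * a'⁻¹) = 1 := by
      have h2 : a'⁻¹ * a = a * a'⁻¹ := (hAc _ (A.inv_mem ha') _ ha)
      calc (a * a'⁻¹) * (a * a'⁻¹) = a * (a'⁻¹ * a) * a'⁻¹ := by group
        _ = a * (a * a'⁻¹) * a'⁻¹ := by rw [h2]
        _ = (a * a) * (a'⁻¹ * a'⁻¹) := by group
        _ = (a' * a') * (a'⁻¹ * a'⁻¹) := by rw [he]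
        _ = 1 := by group
    have h3 := hodd _ (A.mul_mem ha (A.inv_mem ha')) h1
    exact mul_inv_eq_one.mp h3
  -- conjugates by the involutions
  have hinvA : ∀ {t : G}, t ∈ R → t * t = 1 → ∀ a ∈ A, t * a * t ∈ A := by
    intro t ht htt a ha
    have h1 := hAn t ht a ha
    have h2 : t⁻¹ = t := inv_eq_of_mul_eq_one_left htt
    rwa [h2] at h1
  -- centralizing one involution means centralizing the next
  have step : ∀ {t₁ t₂ t₃ : G} {e₁ e₂ e₃ : E}, FG ρ b t₁ t₂ t₃ e₁ e₂ e₃ → t₂ ∈ R → ∀ a ∈ A,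
      a * t₁ = t₁ * a → a * t₂ = t₂ * a := by
    intro t₁ t₂ t₃ e₁ e₂ e₃ hD' ht a ha hc
    apply comm_step h.faith hD' hc
    apply hord
    exact A.mul_mem (hinvA ht hD'.t2sq a ha) (A.inv_mem ha)
  have pi1 : ∀ {t₁ t₂ t₃ : G} {e₁ e₂ e₃ : E}, FG ρ b t₁ t₂ t₃ e₁ e₂ e₃ → t₁ ∈ R → t₂ ∈ R → ∀ a ∈ A,
      a * (t₁ * a * t₁) = (t₂ * a * t₂) * (t₃ * a * t₃) := by
    intro t₁ t₂ t₃ e₁ e₂ e₃ hD' ht1 ht2 a ha
    have hx1 := hinvA ht1 hD'.t1sq a ha
    set c := a * (t₁ * a * t₁) with hc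
    have hcA : c ∈ A := A.mul_mem ha hx1
    have h1 : c * t₁ = t₁ * c := by
      have h2 : t₁ * c * t₁ = c := by
        rw [hc, ic_mul hD'.t1sq, ic_ic hD'.t1sq]
        exact hAc _ hx1 _ ha
      calc c * t₁ = (t₁ * c * t₁) * t₁ := by rw [h2]
        _ = t₁ * c * (t₁ * t₁) := by group
        _ = t₁ * c := by rw [hD'.t1sq, mul_one]
    have h3 := step hD' ht2 c hcA h1
    have h4 : t₂ * c * t₂ = c := by
      calc t₂ * c * t₂ = c * t₂ * t₂ := by rw [← h3]
        _ = c * (t₂ * t₂) := by group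
        _ = c := by rw [hD'.t2sq, mul_one]
    rw [← h4, hc]
    have h5 : t₂ * (a * (t₁ * a * t₁)) * t₂ = (t₂ * a * t₂) * ((t₂ * t₁) * a * (t₁ * t₂)) := by
      rw [ic_mul hD'.t2sq]
      congr 1
      group
    rw [h5, hD'.t21, hD'.t12]
  have hcomm : ∀ a ∈ A, a * t₁ = t₁ * a ∧ a * t₂ = t₂ * a ∧ a * t₃ = t₃ * a := by
    intro a ha
    have x1 := hinvA ht1 hD.t1sq a ha
    have x2 := hinvA ht2 hD.t2sq a ha
    have x3 := hinvA ht3 hD.t3sq a ha
    have r1 := pi1 hD ht1 ht2 a ha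
    have r2 := pi1 hD.shift ht2 ht3 a ha
    have r3 := pi1 hD.shift.shift ht3 ht1 a ha
    set y₁ := t₁ * a * t₁ with hy₁
    set y₂ := t₂ * a * t₂ with hy₂
    set y₃ := t₃ * a * t₃ with hy₃
    have c01 := hAc a ha y₁ x1
    have c02 := hAc a ha y₂ x2
    have c03 := hAc a ha y₃ x3
    have c12 := hAc y₁ x1 y₂ x2
    have c13 := hAc y₁ x1 y₃ x3
    have c23 := hAc y₂ x2 y₃ x3
    have e13 : a = y₃ := by
      apply hsq a ha y₃ x3
      have h1 : (a * y₁) * (a * y₂) = (y₂ * y₃) * (y₃ * y₁) := by rw [r1, r2]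
      have h2 : (a * a) * (y₁ * y₂) = (y₃ * y₃) * (y₁ * y₂) := by
        calc (a * a) * (y₁ * y₂) = a * (a * y₁) * y₂ := by group
          _ = a * (y₁ * a) * y₂ := by rw [c01]
          _ = (a * y₁) * (a * y₂) := by group
          _ = (y₂ * y₃) * (y₃ * y₁) := h1
          _ = y₂ * (y₃ * y₃) * y₁ := by group
          _ = (y₃ * y₃) * y₂ * y₁ := by
              rw [← mul_assoc y₂ y₃ y₃, c23, mul_assoc y₃ y₂ y₃, c23]; group
          _ = (y₃ * y₃) * (y₁ * y₂) := by rw [mul_assoc, ← c12]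
      exact mul_right_cancel h2
    have e11 : a = y₁ := by
      apply hsq a ha y₁ x1
      have h1 : (a * y₂) * (a * y₃) = (y₃ * y₁) * (y₁ * y₂) := by rw [r2, r3]
      have h2 : (a * a) * (y₂ * y₃) = (y₁ * y₁) * (y₂ * y₃) := by
        calc (a * a) * (y₂ * y₃) = a * (a * y₂) * y₃ := by group
          _ = a * (y₂ * a) * y₃ := by rw [c02]
          _ = (a * y₂) * (a * y₃) := by group
          _ = (y₃ * y₁) * (y₁ * y₂) := h1
          _ = y₃ * (y₁ * y₁) * y₂ := by group
          _ = (y₁ * y₁) * y₃ * y₂ := by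
              rw [← mul_assoc y₃ y₁ y₁, ← c13, mul_assoc y₁ y₃ y₁, ← c13]; group
          _ = (y₁ * y₁) * (y₂ * y₃) := by rw [mul_assoc, ← c23]
      exact mul_right_cancel h2
    have conv : ∀ {t : G}, t * t = 1 → a = t * a * t → a * t = t * a := by
      intro t htt hat
      calc a * t = (t * a * t) * t := by rw [← hat]
        _ = t * a * (t * t) := by group
        _ = t * a := by rw [htt, mul_one]
    have k1 := conv hD.t1sq e11
    have k3 := conv hD.t3sq e13
    refine ⟨k1, ?_, k3⟩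
    rw [← hD.t31]
    calc a * (t₃ * t₁) = (a * t₃) * t₁ := by group
      _ = (t₃ * a) * t₁ := by rw [k3]
      _ = t₃ * (a * t₁) := by group
      _ = t₃ * (t₁ * a) := by rw [k1]
      _ = _ := by group
  -- trivial action on the frame
  have hscalar : ∀ a ∈ A, ∀ {x : E} {κ : ZMod 3}, x ≠ 0 → ρ a x = κ • x → κ = 1 := by
    intro a ha x κ hx hκ
    have hpow : ∀ k : ℕ, ρ (a ^ k) x = κ ^ k • x := by
      intro k
      induction k with
      | zero => simp
      | succ k ih =>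
        rw [pow_succ, act_mul, hκ, map_smul, ih, smul_smul, pow_succ, mul_comm]
    have h1 := hpow (orderOf a)
    rw [pow_orderOf_eq_one, act_one] at h1
    have h2 : κ ^ orderOf a = 1 := by
      have h3 : (κ ^ orderOf a) • x = (1 : ZMod 3) • x := by rw [← h1, one_smul]
      exact eq_of_smul_eq hx h3
    have h3 : Odd (orderOf a) := by
      have h4 : Nat.Coprime (orderOf a) 2 := Nat.Coprime.coprime_dvd_right (by norm_num) (hord a ha)
      exact Nat.Coprime.odd_of_right h4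
    have h5 : ∀ k : ZMod 3, k = 0 ∨ k = 1 ∨ k = -1 := by decide
    rcases h5 κ with h6 | h6 | h6
    · rw [h6, zero_pow (orderOf_pos a).ne'] at h2
      exact absurd h2 (by decide)
    · exact h6
    · rw [h6, h3.neg_one_pow] at h2
      exact absurd h2 (by decide)
  have he : ∀ a ∈ A, ρ a e₁ = e₁ ∧ ρ a e₂ = e₂ ∧ ρ a e₃ = e₃ := by
    intro a ha
    obtain ⟨k1, k2, k3⟩ := hcomm a ha
    have c1 : ∀ v, ρ t₁ (ρ a v) = ρ a (ρ t₁ v) := fun v => by rw [← act_mul, ← act_mul, k1]
    have c2 : ∀ v, ρ t₂ (ρ a v) = ρ a (ρ t₂ v) := fun v => by rw [← act_mul, ← act_mul, k2]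
    have c3 : ∀ v, ρ t₃ (ρ a v) = ρ a (ρ t₃ v) := fun v => by rw [← act_mul, ← act_mul, k3]
    obtain ⟨κ₁, h1⟩ := hD.eig₁ (w := ρ a e₁) (by rw [c1, hD.t1e1]) (by rw [c2, hD.t2e1, map_neg])
    obtain ⟨κ₂, h2⟩ := hD.eig₂ (w := ρ a e₂) (by rw [c1, hD.t1e2, map_neg]) (by rw [c2, hD.t2e2])
    obtain ⟨κ₃, h3⟩ := hD.eig₃ (w := ρ a e₃) (by rw [c1, hD.t1e3, map_neg]) (by rw [c2, hD.t2e3, map_neg])
    have k₁ := hscalar a ha hD.e1ne h1
    have k₂ := hscalar a ha hD.e2ne h2
    have k₃ := hscalar a ha hD.e3ne h3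
    rw [k₁, one_smul] at h1
    rw [k₂, one_smul] at h2
    rw [k₃, one_smul] at h3
    exact ⟨h1, h2, h3⟩
  -- `b` centralizes `A`
  have hab : ∀ a ∈ A, a * b = b * a := by
    intro a ha
    have hia := A.inv_mem ha
    have hg : a * (b * a⁻¹ * b⁻¹) ∈ A := A.mul_mem ha (hAb _ hia)
    have hone : a * (b * a⁻¹ * b⁻¹) = 1 := by
      apply h.faith
      rw [map_one]
      ext v
      rw [Module.End.one_apply]
      obtain ⟨c, a₁, a₂, a₃, rfl, hc1, hc2⟩ := hD.span v
      obtain ⟨f1, f2, f3⟩ := he _ hg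
      have hcf : ρ (a * (b * a⁻¹ * b⁻¹)) c = c := by
        have hb := hD.bfix c hc1 hc2
        have hbi : ρ b⁻¹ c = c := by
          nth_rewrite 1 [← hb]
          exact act_inv_act ρ b c
        obtain ⟨k1, k2, _⟩ := hcomm _ hia
        have f1' : ρ t₁ (ρ a⁻¹ c) = ρ a⁻¹ c := by rw [← act_mul, ← k1, act_mul, hc1]
        have f2' : ρ t₂ (ρ a⁻¹ c) = ρ a⁻¹ c := by rw [← act_mul, ← k2, act_mul, hc2]
        have hb' := hD.bfix _ f1' f2'
        simp only [act_mul]
        rw [hbi, hb', act_act_inv]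
      simp only [map_add, map_smul, hcf, f1, f2, f3]
    rw [mul_eq_one_iff_eq_inv] at hone
    have h1 : a * b = (b * a⁻¹ * b⁻¹)⁻¹ * b := by rw [← hone]
    rw [h1]
    group
  -- `R` centralizes `A`
  have hra : ∀ a ∈ A, ∀ r ∈ R, a * r = r * a := by
    intro a ha
    have hL : R ≤ Subgroup.centralizer ({a} : Set G) := by
      apply h.gen
      intro s hs
      rw [Subgroup.mem_centralizer_singleton_iff]
      have h1 : s⁻¹ * a * s ∈ A := by
        have := hAn s⁻¹ (R.inv_mem hs) a ha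
        rwa [inv_inv] at this
      have h2 := hab _ h1
      have h3 := hab a ha
      have h4 : b⁻¹ * a * b = a := by
        calc b⁻¹ * a * b = b⁻¹ * (a * b) := by group
          _ = b⁻¹ * (b * a) := by rw [h3]
          _ = a := by group
      calc s * b * s⁻¹ * b⁻¹ * a = s * b * s⁻¹ * (b⁻¹ * a * b) * b⁻¹ := by group
        _ = s * b * s⁻¹ * a * b⁻¹ := by rw [h4]
        _ = s * (b * (s⁻¹ * a * s)) * s⁻¹ * b⁻¹ := by group
        _ = s * ((s⁻¹ * a * s) * b) * s⁻¹ * b⁻¹ := by rw [h2]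
        _ = a * (s * b * s⁻¹ * b⁻¹) := by group
    intro r hr
    have h1 := hL hr
    rw [Subgroup.mem_centralizer_singleton_iff] at h1
    exact h1.symm
  rw [eq_bot_iff]
  intro a ha
  rw [Subgroup.mem_bot]
  apply h.eq_one_of
  · intro w hw
    rw [W_le_Y h hD |> fun hle => (show W ρ R = Y ρ R e₁ e₂ e₃ from W_eq_Y h hD ht1)] at hw
    obtain ⟨f1, f2, f3⟩ := he a ha
    induction hw using Submodule.span_induction with
    | mem x hx =>
      obtain ⟨r, hr, hx⟩ := hx
      have hc := hra a ha r hr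
      have hcm : ∀ y, ρ a (ρ r y) = ρ r (ρ a y) := fun y => by rw [← act_mul, ← act_mul, hc]
      rcases hx with rfl | rfl | rfl
      · rw [hcm, f1]
      · rw [hcm, f2]
      · rw [hcm, f3]
    | zero => exact map_zero _
    | add x y _ _ hx hy => rw [map_add, hx, hy]
    | smul k x _ hx => rw [map_smul, hx]
  · intro f hf
    exact hf a (hAR ha)

end Cfsg.Agent.Lib.CubD
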