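import Mathlib
import Cfsg.Agent.Lib.CubD

/-!
# Pairs of commuting four-groups
-/

set_option autoImplicit false
set_option linter.unusedSectionVars false
set_option linter.unusedVariables false

namespace Cfsg.Agent.Lib.CubE

open Cfsg.Agent.Lib.CubA Cfsg.Agent.Lib.CubB Cfsg.Agent.Lib.CubC Cfsg.Agent.Lib.CubC.Sett
  Cfsg.Agent.Lib.CubD

variable {G : Type*} [Group G] {E : Type*} [AddCommGroup E] [Module (ZMod 3) E]
variable {ρ : Representation (ZMod 3) G E}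

/-- The frame of three lines. -/
def Fr (e₁ e₂ e₃ x : E) : Prop := x = e₁ ∨ x = -e₁ ∨ x = e₂ ∨ x = -e₂ ∨ x = e₃ ∨ x = -e₃

variable {b b' t₁ t₂ t₃ t₁' t₂' t₃' : G} {e₁ e₂ e₃ e₁' e₂' e₃' : E}

theorem zm_cases (a : ZMod 3) : a = 0 ∨ a = 1 ∨ a = -1 := by
  revert a; decide

theorem smul_fr {a : ZMod 3} {e x : E} (hx : x ≠ 0) (h : x = a • e) : x = e ∨ x = -e := by
  rcases zm_cases a with rfl | rfl | rfl
  · rw [zero_smul] at h; exact absurd h hx
  · left; rwa [one_smul] at h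
  · right; rwa [neg_smul, one_smul] at h

/-- An involution commuting with a four-group acts on each of its eigenlines by a sign. -/
theorem sign_of_comm (hD' : FG ρ b' t₁' t₂' t₃' e₁' e₂' e₃') {t : G} (htt : t * t = 1)
    (c1 : t * t₁' = t₁' * t) (c2 : t * t₂' = t₂' * t) : ρ t e₁' = e₁' ∨ ρ t e₁' = -e₁' := by
  have h1 : ρ t₁' (ρ t e₁') = ρ t e₁' := by
    rw [← act_mul, ← c1, act_mul, hD'.t1e1]
  have h2 : ρ t₂' (ρ t e₁') = -ρ t e₁' := by
    rw [← act_mul, ← c2, act_mul, hD'.t2e1, map_neg]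
  obtain ⟨a, ha⟩ := hD'.eig₁ h1 h2
  have hne : ρ t e₁' ≠ 0 := by
    intro h0
    exact hD'.e1ne (act_inj ρ t (h0.trans (map_zero _).symm))
  exact smul_fr hne ha

/-- Classification of a simultaneous eigenvector. -/
theorem class₁ (hD : FG ρ b t₁ t₂ t₃ e₁ e₂ e₃) (hD' : FG ρ b' t₁' t₂' t₃' e₁' e₂' e₃')
    (c11 : t₁ * t₁' = t₁' * t₁) (c12 : t₁ * t₂' = t₂' * t₁)
    (c21 : t₂ * t₁' = t₁' * t₂) (c22 : t₂ * t₂' = t₂' * t₂) :
    ρ b e₁' = e₁' ∨ Fr e₁ e₂ e₃ e₁' := by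
  have s1 := sign_of_comm hD' hD.t1sq c11 c12
  have s2 := sign_of_comm hD' hD.t2sq c21 c22
  have hne := hD'.e1ne
  rcases s1 with s1 | s1 <;> rcases s2 with s2 | s2
  · left; exact hD.bfix _ s1 s2
  · right
    obtain ⟨a, ha⟩ := hD.eig₁ s1 s2
    rcases smul_fr hne ha with h | h
    · left; exact h
    · right; left; exact h
  · right
    obtain ⟨a, ha⟩ := hD.eig₂ s1 s2
    rcases smul_fr hne ha with h | h
    · right; right; left; exact h
    · right; right; right; left; exact h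
  · right
    obtain ⟨a, ha⟩ := hD.eig₃ s1 s2
    rcases smul_fr hne ha with h | h
    · right; right; right; right; left; exact h
    · right; right; right; right; right; exact h

/-- Distinct lines of a frame. -/
theorem e2_ne (hD : FG ρ b t₁ t₂ t₃ e₁ e₂ e₃) : e₂ ≠ e₁ ∧ e₂ ≠ -e₁ := by
  constructor
  · intro h
    have h1 := hD.t1e2
    rw [h, hD.t1e1] at h1
    exact hD.e1ne (eq_zero_of_eq_neg h1)
  · intro h
    have h1 := hD.t1e2
    rw [h, map_neg, hD.t1e1, neg_neg] at h1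
    exact hD.e1ne (eq_zero_of_eq_neg h1.symm)

theorem e3_ne (hD : FG ρ b t₁ t₂ t₃ e₁ e₂ e₃) : e₃ ≠ e₁ ∧ e₃ ≠ -e₁ := by
  constructor
  · intro h
    have h1 := hD.t1e3
    rw [h, hD.t1e1] at h1
    exact hD.e1ne (eq_zero_of_eq_neg h1)
  · intro h
    have h1 := hD.t1e3
    rw [h, map_neg, hD.t1e1, neg_neg] at h1
    exact hD.e1ne (eq_zero_of_eq_neg h1.symm)

theorem e3_ne2 (hD : FG ρ b t₁ t₂ t₃ e₁ e₂ e₃) : e₃ ≠ e₂ ∧ e₃ ≠ -e₂ := by
  exact e2_ne hD.shift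

/-- The case of no common line. -/
theorem no0 [Finite G] [Finite E] (faith : Function.Injective ρ)
    (hD : FG ρ b t₁ t₂ t₃ e₁ e₂ e₃) (hD' : FG ρ b' t₁' t₂' t₃' e₁' e₂' e₃')
    (hb3 : b * b * b = 1) (hb3' : b' * b' * b' = 1)
    (hd : ¬ 3 ∣ orderOf (b⁻¹ * b'))
    (f1 : ρ b e₁' = e₁') (f2 : ρ b e₂' = e₂') (f3 : ρ b e₃' = e₃')
    (f1' : ρ b' e₁ = e₁) (f2' : ρ b' e₂ = e₂) (f3' : ρ b' e₃ = e₃) : False := by
  have h1 : ∀ v, ρ b (ρ b' v) = ρ b' v + ρ b v - v := by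
    intro v
    obtain ⟨a₁, a₂, a₃, h⟩ := b_sub_mem hD' v
    have h2 : ρ b (ρ b' v - v) = ρ b' v - v := by
      rw [h]
      simp only [map_add, map_smul, f1, f2, f3]
    rw [map_sub] at h2
    rw [sub_eq_iff_eq_add] at h2
    rw [h2]; abel
  have h2 : ∀ v, ρ b' (ρ b v) = ρ b' v + ρ b v - v := by
    intro v
    obtain ⟨a₁, a₂, a₃, h⟩ := b_sub_mem hD v
    have h2 : ρ b' (ρ b v - v) = ρ b v - v := by
      rw [h]
      simp only [map_add, map_smul, f1', f2', f3']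
    rw [map_sub] at h2
    rw [sub_eq_iff_eq_add] at h2
    rw [h2]; abel
  have hcomm : b * b' = b' * b := by
    apply faith
    ext v
    rw [act_mul, act_mul, h1, h2]
  have hd3 : (b⁻¹ * b') ^ 3 = 1 := by
    have hc : Commute b⁻¹ b' := (Commute.inv_left hcomm)
    rw [hc.mul_pow]
    have h3 : b ^ 3 = 1 := by rw [pow_succ, pow_two]; exact hb3
    have h4 : b' ^ 3 = 1 := by rw [pow_succ, pow_two]; exact hb3'
    rw [inv_pow, h3, h4]; simp
  have hdo : orderOf (b⁻¹ * b') ∣ 3 := orderOf_dvd_of_pow_eq_one hd3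
  have hd1 : orderOf (b⁻¹ * b') = 1 := by
    rcases (Nat.dvd_prime (by norm_num : Nat.Prime 3)).mp hdo with h | h
    · exact h
    · exact absurd (by rw [h]) hd
  have hbb : b = b' := by
    have := orderOf_eq_one_iff.mp hd1
    rw [inv_mul_eq_one] at this
    exact this
  have h5 := hD'.be1
  rw [← hbb, f1] at h5
  exact (e2_ne hD').1 h5.symm

/-- The case of exactly one common line. -/
theorem no1 [Finite G] (hD : FG ρ b t₁ t₂ t₃ e₁ e₂ e₃) (hD' : FG ρ b' t₁' t₂' t₃' e₁ e₂' e₃')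
    (hc : ¬ 3 ∣ orderOf (b * b' * b⁻¹ * b'⁻¹))
    (f2 : ρ b e₂' = e₂') (f3 : ρ b e₃' = e₃')
    (f2' : ρ b' e₂ = e₂) (f3' : ρ b' e₃ = e₃) : False := by
  set c := b * b' * b⁻¹ * b'⁻¹ with hcd
  have i1 : ρ b'⁻¹ e₁ = e₃' := by
    rw [← hD'.be3, act_inv_act]
  have i2 : ρ b⁻¹ e₃' = e₃' := by
    nth_rewrite 1 [← f3]; exact act_inv_act ρ b _
  have i3 : ρ b'⁻¹ e₂ = e₂ := by
    nth_rewrite 1 [← f2']; exact act_inv_act ρ b' _
  have i4 : ρ b⁻¹ e₂ = e₁ := by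
    rw [← hD.be1, act_inv_act]
  have i5 : ρ b'⁻¹ e₂' = e₁ := by
    rw [← hD'.be1, act_inv_act]
  have i6 : ρ b⁻¹ e₁ = e₃ := by
    rw [← hD.be3, act_inv_act]
  have c1 : ρ c e₁ = e₂ := by
    simp only [hcd, act_mul]
    rw [i1, i2, hD'.be2 |> fun _ => hD'.be3, hD.be1]
  have c2 : ρ c e₂ = e₂' := by
    simp only [hcd, act_mul]
    rw [i3, i4, hD'.be1, f2]
  have c3 : ρ c e₂' = e₁ := by
    simp only [hcd, act_mul]
    rw [i5, i6, f3', hD.be3]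
  have c6 : ∀ k : ℕ, ρ (c ^ (3 * k)) e₁ = e₁ := by
    intro k
    induction k with
    | zero => simp
    | succ k ih =>
      have : 3 * (k + 1) = 3 * k + 3 := by ring
      rw [this, pow_add, act_mul, pow_succ, pow_two, act_mul, act_mul, c1, c2, c3, ih]
  have hn := pow_orderOf_eq_one c
  have hmod : orderOf c % 3 = 1 ∨ orderOf c % 3 = 2 := by
    have h1 : orderOf c % 3 ≠ 0 := fun h0 => hc (Nat.dvd_of_mod_eq_zero h0)
    omega
  have hdm := Nat.div_add_mod (orderOf c) 3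
  have h5 : ρ (c ^ orderOf c) e₁ = ρ (c ^ (orderOf c % 3)) e₁ := by
    nth_rewrite 1 [← hdm]
    rw [add_comm, pow_add, act_mul, c6]
  rw [hn, act_one] at h5
  rcases hmod with hm | hm
  · rw [hm, pow_one, c1] at h5
    exact (e2_ne hD).1 h5.symm
  · rw [hm, pow_two, act_mul, c1, c2] at h5
    exact (e2_ne hD').1 h5.symm

theorem fr_shift {x : E} : Fr e₂ e₃ e₁ x ↔ Fr e₁ e₂ e₃ x := by
  unfold Fr; tauto

theorem fr_neg {x : E} : Fr (-e₁) (-e₂) (-e₃) x ↔ Fr e₁ e₂ e₃ x := by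
  unfold Fr; simp only [neg_neg]; tauto

/-- If a vector is on the frame of `e'`, then the corresponding vector of `e'` is on the frame
of anything containing this vector. -/
theorem fr_of_eq {x y z w : E} (h : y = x ∨ y = -x) : x = y ∨ x = -y := by
  rcases h with h | h
  · left; exact h.symm
  · right; rw [h, neg_neg]

theorem one_common [Finite G] [Finite E] {u₁ u₂ u₃ : G} {f₁ f₂ f₃ : E}
    (hD : FG ρ b u₁ u₂ u₃ f₁ f₂ f₃) (hD' : FG ρ b' t₁' t₂' t₃' f₁ e₂' e₃')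
    (hc : ¬ 3 ∣ orderOf (b * b' * b⁻¹ * b'⁻¹))
    (hcm : ∀ t ∈ ({u₁, u₂, u₃} : Set G), ∀ t' ∈ ({t₁', t₂', t₃'} : Set G), t * t' = t' * t)
    (n2 : ¬ Fr f₁ f₂ f₃ e₂') (n3 : ¬ Fr f₁ f₂ f₃ e₃') : False := by
  have m1 : u₁ ∈ ({u₁, u₂, u₃} : Set G) := by simp
  have m2 : u₂ ∈ ({u₁, u₂, u₃} : Set G) := by simp
  have m3 : u₃ ∈ ({u₁, u₂, u₃} : Set G) := by simp
  have m1' : t₁' ∈ ({t₁', t₂', t₃'} : Set G) := by simp
  have m2' : t₂' ∈ ({t₁', t₂', t₃'} : Set G) := by simp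
  have m3' : t₃' ∈ ({t₁', t₂', t₃'} : Set G) := by simp
  have a2 := class₁ hD hD'.shift (hcm _ m1 _ m2') (hcm _ m1 _ m3') (hcm _ m2 _ m2') (hcm _ m2 _ m3')
  have a3 := class₁ hD hD'.shift.shift (hcm _ m1 _ m3') (hcm _ m1 _ m1') (hcm _ m2 _ m3') (hcm _ m2 _ m1')
  have b2 := class₁ hD' hD.shift (hcm _ m2 _ m1').symm (hcm _ m3 _ m1').symm (hcm _ m2 _ m2').symm (hcm _ m3 _ m2').symm
  have b3 := class₁ hD' hD.shift.shift (hcm _ m3 _ m1').symm (hcm _ m1 _ m1').symm (hcm _ m3 _ m2').symm (hcm _ m1 _ m2').symm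
  have f2 : ρ b e₂' = e₂' := a2.resolve_right n2
  have f3 : ρ b e₃' = e₃' := a3.resolve_right n3
  have f2' : ρ b' f₂ = f₂ := by
    refine b2.resolve_right ?_
    rintro (h | h | h | h | h | h)
    · exact (e2_ne hD).1 h
    · exact (e2_ne hD).2 h
    · exact n2 (by right; right; left; exact h.symm)
    · exact n2 (by right; right; right; left; rw [h, neg_neg])
    · exact n3 (by right; right; left; exact h.symm)
    · exact n3 (by right; right; right; left; rw [h, neg_neg])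
  have f3' : ρ b' f₃ = f₃ := by
    refine b3.resolve_right ?_
    rintro (h | h | h | h | h | h)
    · exact (e3_ne hD).1 h
    · exact (e3_ne hD).2 h
    · exact n2 (by right; right; right; right; left; exact h.symm)
    · exact n2 (by right; right; right; right; right; rw [h, neg_neg])
    · exact n3 (by right; right; right; right; left; exact h.symm)
    · exact n3 (by right; right; right; right; right; rw [h, neg_neg])
  exact no1 hD hD' hc f2 f3 f2' f3'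

theorem case_S [Finite G] [Finite E]
    (hD : FG ρ b t₁ t₂ t₃ e₁ e₂ e₃) (hD' : FG ρ b' t₁' t₂' t₃' e₁' e₂' e₃')
    (hc : ¬ 3 ∣ orderOf (b * b' * b⁻¹ * b'⁻¹))
    (hcm : ∀ t ∈ ({t₁, t₂, t₃} : Set G), ∀ t' ∈ ({t₁', t₂', t₃'} : Set G), t * t' = t' * t)
    (s1 : Fr e₁ e₂ e₃ e₁') (n2 : ¬ Fr e₁ e₂ e₃ e₂') (n3 : ¬ Fr e₁ e₂ e₃ e₃') : False := by
  have hcm2 : ∀ t ∈ ({t₂, t₃, t₁} : Set G), ∀ t' ∈ ({t₁', t₂', t₃'} : Set G), t * t' = t' * t := by
    intro t ht t' ht'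
    apply hcm _ _ _ ht'
    simp only [Set.mem_insert_iff, Set.mem_singleton_iff] at ht ⊢
    tauto
  have hcm3 : ∀ t ∈ ({t₃, t₁, t₂} : Set G), ∀ t' ∈ ({t₁', t₂', t₃'} : Set G), t * t' = t' * t := by
    intro t ht t' ht'
    apply hcm _ _ _ ht'
    simp only [Set.mem_insert_iff, Set.mem_singleton_iff] at ht ⊢
    tauto
  have n2s : ¬ Fr e₂ e₃ e₁ e₂' := fun h => n2 (fr_shift.mp h)
  have n3s : ¬ Fr e₂ e₃ e₁ e₃' := fun h => n3 (fr_shift.mp h)
  have n2t : ¬ Fr e₃ e₁ e₂ e₂' := fun h => n2s (fr_shift.mp h)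
  have n3t : ¬ Fr e₃ e₁ e₂ e₃' := fun h => n3s (fr_shift.mp h)
  rcases s1 with rfl | rfl | rfl | rfl | rfl | rfl
  · exact one_common hD hD' hc hcm n2 n3
  · exact one_common hD.neg hD' hc hcm (fun h => n2 (fr_neg.mp h)) (fun h => n3 (fr_neg.mp h))
  · exact one_common hD.shift hD' hc hcm2 n2s n3s
  · exact one_common hD.shift.neg hD' hc hcm2 (fun h => n2s (fr_neg.mp h)) (fun h => n3s (fr_neg.mp h))
  · exact one_common hD.shift.shift hD' hc hcm3 n2t n3t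
  · exact one_common hD.shift.shift.neg hD' hc hcm3 (fun h => n2t (fr_neg.mp h)) (fun h => n3t (fr_neg.mp h))

/-- **The pair lemma**: two commuting four-groups share at least two lines. -/
theorem pair [Finite G] [Finite E] (faith : Function.Injective ρ)
    (hD : FG ρ b t₁ t₂ t₃ e₁ e₂ e₃) (hD' : FG ρ b' t₁' t₂' t₃' e₁' e₂' e₃')
    (hb3 : b * b * b = 1) (hb3' : b' * b' * b' = 1)
    (hd : ¬ 3 ∣ orderOf (b⁻¹ * b'))
    (hc : ¬ 3 ∣ orderOf (b * b' * b⁻¹ * b'⁻¹))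
    (hcm : ∀ t ∈ ({t₁, t₂, t₃} : Set G), ∀ t' ∈ ({t₁', t₂', t₃'} : Set G), t * t' = t' * t) :
    (Fr e₁ e₂ e₃ e₁' ∧ Fr e₁ e₂ e₃ e₂') ∨ (Fr e₁ e₂ e₃ e₂' ∧ Fr e₁ e₂ e₃ e₃') ∨
      (Fr e₁ e₂ e₃ e₃' ∧ Fr e₁ e₂ e₃ e₁') := by
  have m1 : t₁ ∈ ({t₁, t₂, t₃} : Set G) := by simp
  have m2 : t₂ ∈ ({t₁, t₂, t₃} : Set G) := by simp
  have m3 : t₃ ∈ ({t₁, t₂, t₃} : Set G) := by simp
  have m1' : t₁' ∈ ({t₁', t₂', t₃'} : Set G) := by simp
  have m2' : t₂' ∈ ({t₁', t₂', t₃'} : Set G) := by simp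
  have m3' : t₃' ∈ ({t₁', t₂', t₃'} : Set G) := by simp
  have hcm2 : ∀ t ∈ ({t₁, t₂, t₃} : Set G), ∀ t' ∈ ({t₂', t₃', t₁'} : Set G), t * t' = t' * t := by
    intro t ht t' ht'
    apply hcm _ ht _
    simp only [Set.mem_insert_iff, Set.mem_singleton_iff] at ht' ⊢
    tauto
  have hcm3 : ∀ t ∈ ({t₁, t₂, t₃} : Set G), ∀ t' ∈ ({t₃', t₁', t₂'} : Set G), t * t' = t' * t := by
    intro t ht t' ht'
    apply hcm _ ht _
    simp only [Set.mem_insert_iff, Set.mem_singleton_iff] at ht' ⊢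
    tauto
  by_contra hno
  push Not at hno
  obtain ⟨h12, h23, h31⟩ := hno
  by_cases s1 : Fr e₁ e₂ e₃ e₁'
  · exact case_S hD hD' hc hcm s1 (h12 s1) (fun s3 => h31 s3 s1)
  by_cases s2 : Fr e₁ e₂ e₃ e₂'
  · exact case_S hD hD'.shift hc hcm2 s2 (h23 s2) s1
  by_cases s3 : Fr e₁ e₂ e₃ e₃'
  · exact case_S hD hD'.shift.shift hc hcm3 s3 s1 s2
  have a1 := class₁ hD hD' (hcm _ m1 _ m1') (hcm _ m1 _ m2') (hcm _ m2 _ m1') (hcm _ m2 _ m2')
  have a2 := class₁ hD hD'.shift (hcm _ m1 _ m2') (hcm _ m1 _ m3') (hcm _ m2 _ m2') (hcm _ m2 _ m3')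
  have a3 := class₁ hD hD'.shift.shift (hcm _ m1 _ m3') (hcm _ m1 _ m1') (hcm _ m2 _ m3') (hcm _ m2 _ m1')
  have b1 := class₁ hD' hD (hcm _ m1 _ m1').symm (hcm _ m2 _ m1').symm (hcm _ m1 _ m2').symm (hcm _ m2 _ m2').symm
  have b2 := class₁ hD' hD.shift (hcm _ m2 _ m1').symm (hcm _ m3 _ m1').symm (hcm _ m2 _ m2').symm (hcm _ m3 _ m2').symm
  have b3 := class₁ hD' hD.shift.shift (hcm _ m3 _ m1').symm (hcm _ m1 _ m1').symm (hcm _ m3 _ m2').symm (hcm _ m1 _ m2').symm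
  have key : ∀ x : E, (x = e₁ ∨ x = -e₁ ∨ x = e₂ ∨ x = -e₂ ∨ x = e₃ ∨ x = -e₃) → ¬ Fr e₁' e₂' e₃' x := by
    intro x hx hf
    rcases hf with h | h | h | h | h | h
    · apply s1; subst h; exact hx
    · apply s1
      have : e₁' = -x := by rw [h, neg_neg]
      rw [this]
      rcases hx with h' | h' | h' | h' | h' | h' <;> rw [h'] <;> simp [Fr]
    · apply s2; subst h; exact hx
    · apply s2
      have : e₂' = -x := by rw [h, neg_neg]
      rw [this]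
      rcases hx with h' | h' | h' | h' | h' | h' <;> rw [h'] <;> simp [Fr]
    · apply s3; subst h; exact hx
    · apply s3
      have : e₃' = -x := by rw [h, neg_neg]
      rw [this]
      rcases hx with h' | h' | h' | h' | h' | h' <;> rw [h'] <;> simp [Fr]
  exact no0 faith hD hD' hb3 hb3' hd (a1.resolve_right s1) (a2.resolve_right s2) (a3.resolve_right s3)
    (b1.resolve_right (key _ (by simp)))
    (b2.resolve_right (key _ (by simp)))
    (b3.resolve_right (key _ (by simp)))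

end Cfsg.Agent.Lib.CubE
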