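import Mathlib
import Cfsg.Agent.Lib.CubE

/-!
# If all conjugates of the four-group commute, `W` is spanned by four vectors
-/

set_option autoImplicit false
set_option linter.unusedSectionVars false
set_option linter.unusedVariables false

namespace Cfsg.Agent.Lib.CubF

open Cfsg.Agent.Lib.CubA Cfsg.Agent.Lib.CubB Cfsg.Agent.Lib.CubC Cfsg.Agent.Lib.CubC.Sett
  Cfsg.Agent.Lib.CubD Cfsg.Agent.Lib.CubE

variable {G : Type*} [Group G] {E : Type*} [AddCommGroup E] [Module (ZMod 3) E]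
variable {ρ : Representation (ZMod 3) G E} {R : Subgroup G}
variable {b t₁ t₂ t₃ : G} {e₁ e₂ e₃ : E}

/-- The `R`-conjugates of the involutions. -/
def Cl (R : Subgroup G) (t₁ t₂ t₃ : G) : Set G :=
  {x | ∃ r ∈ R, x = r * t₁ * r⁻¹ ∨ x = r * t₂ * r⁻¹ ∨ x = r * t₃ * r⁻¹}

/-- Derived data. -/
structure DD (ρ : Representation (ZMod 3) G E) (R : Subgroup G) (b t₁ t₂ t₃ : G)
    (b' u₁ u₂ u₃ : G) (x₁ x₂ x₃ : E) : Prop where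
  fg : FG ρ b' u₁ u₂ u₃ x₁ x₂ x₃
  b3 : b' * b' * b' = 1
  bv : ∃ v ∈ R, b' = v * b
  u1 : u₁ ∈ Cl R t₁ t₂ t₃
  u2 : u₂ ∈ Cl R t₁ t₂ t₃
  u3 : u₃ ∈ Cl R t₁ t₂ t₃

theorem cl_conj {r x : G} (hr : r ∈ R) (hx : x ∈ Cl R t₁ t₂ t₃) : r * x * r⁻¹ ∈ Cl R t₁ t₂ t₃ := by
  obtain ⟨s, hs, h⟩ := hx
  refine ⟨r * s, R.mul_mem hr hs, ?_⟩
  rcases h with rfl | rfl | rfl
  · left; group
  · right; left; group
  · right; right; group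

theorem cl_b (h : Sett ρ R b) (hD : FG ρ b t₁ t₂ t₃ e₁ e₂ e₃) {x : G} (hx : x ∈ Cl R t₁ t₂ t₃) :
    b * x * b⁻¹ ∈ Cl R t₁ t₂ t₃ := by
  obtain ⟨s, hs, hh⟩ := hx
  refine ⟨b * s * b⁻¹, h.nb _ hs, ?_⟩
  rcases hh with rfl | rfl | rfl
  · right; left; rw [← hD.bt1]; group
  · right; right; rw [← hD.bt2]; group
  · left; rw [← hD.bt3]; group

namespace DD

variable {b' u₁ u₂ u₃ : G} {x₁ x₂ x₃ : E}

theorem base (h : Sett ρ R b) (hD : FG ρ b t₁ t₂ t₃ e₁ e₂ e₃) :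
    DD ρ R b t₁ t₂ t₃ b t₁ t₂ t₃ e₁ e₂ e₃ where
  fg := hD
  b3 := h.b3
  bv := ⟨1, R.one_mem, by simp⟩
  u1 := ⟨1, R.one_mem, Or.inl (by simp)⟩
  u2 := ⟨1, R.one_mem, Or.inr (Or.inl (by simp))⟩
  u3 := ⟨1, R.one_mem, Or.inr (Or.inr (by simp))⟩

theorem shift (D : DD ρ R b t₁ t₂ t₃ b' u₁ u₂ u₃ x₁ x₂ x₃) :
    DD ρ R b t₁ t₂ t₃ b' u₂ u₃ u₁ x₂ x₃ x₁ where
  fg := D.fg.shift
  b3 := D.b3
  bv := D.bv
  u1 := D.u2
  u2 := D.u3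
  u3 := D.u1

theorem conj_r (h : Sett ρ R b) (D : DD ρ R b t₁ t₂ t₃ b' u₁ u₂ u₃ x₁ x₂ x₃) {r : G} (hr : r ∈ R) :
    DD ρ R b t₁ t₂ t₃ (r * b' * r⁻¹) (r * u₁ * r⁻¹) (r * u₂ * r⁻¹) (r * u₃ * r⁻¹)
      (ρ r x₁) (ρ r x₂) (ρ r x₃) where
  fg := D.fg.conj r
  b3 := by
    calc r * b' * r⁻¹ * (r * b' * r⁻¹) * (r * b' * r⁻¹) = r * (b' * b' * b') * r⁻¹ := by group
      _ = 1 := by rw [D.b3]; group
  bv := by
    obtain ⟨v, hv, hh⟩ := D.bv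
    refine ⟨r * v * (b * r⁻¹ * b⁻¹), R.mul_mem (R.mul_mem hr hv) (h.nb _ (R.inv_mem hr)), ?_⟩
    rw [hh]; group
  u1 := cl_conj hr D.u1
  u2 := cl_conj hr D.u2
  u3 := cl_conj hr D.u3

theorem conj_b (h : Sett ρ R b) (hD : FG ρ b t₁ t₂ t₃ e₁ e₂ e₃)
    (D : DD ρ R b t₁ t₂ t₃ b' u₁ u₂ u₃ x₁ x₂ x₃) :
    DD ρ R b t₁ t₂ t₃ (b * b' * b⁻¹) (b * u₁ * b⁻¹) (b * u₂ * b⁻¹) (b * u₃ * b⁻¹)
      (ρ b x₁) (ρ b x₂) (ρ b x₃) where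
  fg := D.fg.conj b
  b3 := by
    calc b * b' * b⁻¹ * (b * b' * b⁻¹) * (b * b' * b⁻¹) = b * (b' * b' * b') * b⁻¹ := by group
      _ = 1 := by rw [D.b3]; group
  bv := by
    obtain ⟨v, hv, hh⟩ := D.bv
    refine ⟨b * v * b⁻¹, h.nb _ hv, ?_⟩
    rw [hh]; group
  u1 := cl_b h hD D.u1
  u2 := cl_b h hD D.u2
  u3 := cl_b h hD D.u3

end DD

variable [Finite G] [Finite E]

theorem pair_dd (h : Sett ρ R b) (hcm : ∀ x ∈ Cl R t₁ t₂ t₃, ∀ y ∈ Cl R t₁ t₂ t₃, x * y = y * x)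
    {b₁ b₂ u₁ u₂ u₃ u₁' u₂' u₃' : G} {x₁ x₂ x₃ x₁' x₂' x₃' : E}
    (D₁ : DD ρ R b t₁ t₂ t₃ b₁ u₁ u₂ u₃ x₁ x₂ x₃)
    (D₂ : DD ρ R b t₁ t₂ t₃ b₂ u₁' u₂' u₃' x₁' x₂' x₃') :
    (Fr x₁ x₂ x₃ x₁' ∧ Fr x₁ x₂ x₃ x₂') ∨ (Fr x₁ x₂ x₃ x₂' ∧ Fr x₁ x₂ x₃ x₃') ∨
      (Fr x₁ x₂ x₃ x₃' ∧ Fr x₁ x₂ x₃ x₁') := by
  obtain ⟨v₁, hv₁, e1⟩ := D₁.bv
  obtain ⟨v₂, hv₂, e2⟩ := D₂.bv
  refine pair h.faith D₁.fg D₂.fg D₁.b3 D₂.b3 ?_ ?_ ?_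
  · refine h.cop _ ?_
    have : b₁⁻¹ * b₂ = b⁻¹ * (v₁⁻¹ * v₂) * b := by rw [e1, e2]; group
    rw [this]
    exact h.nb' (R.mul_mem (R.inv_mem hv₁) hv₂)
  · refine h.cop _ ?_
    have : b₁ * b₂ * b₁⁻¹ * b₂⁻¹ = v₁ * (b * (v₂ * v₁⁻¹) * b⁻¹) * v₂⁻¹ := by rw [e1, e2]; group
    rw [this]
    exact R.mul_mem (R.mul_mem hv₁ (h.nb _ (R.mul_mem hv₂ (R.inv_mem hv₁)))) (R.inv_mem hv₂)
  · intro t ht t' ht'
    have h1 : t ∈ Cl R t₁ t₂ t₃ := by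
      simp only [Set.mem_insert_iff, Set.mem_singleton_iff] at ht
      rcases ht with rfl | rfl | rfl
      · exact D₁.u1
      · exact D₁.u2
      · exact D₁.u3
    have h2 : t' ∈ Cl R t₁ t₂ t₃ := by
      simp only [Set.mem_insert_iff, Set.mem_singleton_iff] at ht'
      rcases ht' with rfl | rfl | rfl
      · exact D₂.u1
      · exact D₂.u2
      · exact D₂.u3
    exact hcm _ h1 _ h2

/-- The line indices. -/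
def Ln (e₁ e₂ e₃ : E) (i : Fin 3) (x : E) : Prop :=
  x = (![e₁, e₂, e₃] : Fin 3 → E) i ∨ x = -(![e₁, e₂, e₃] : Fin 3 → E) i

omit [Finite G] [Finite E] in
theorem ln_of_fr {x : E} (hx : Fr e₁ e₂ e₃ x) : ∃ i, Ln e₁ e₂ e₃ i x := by
  rcases hx with h | h | h | h | h | h
  · exact ⟨0, Or.inl h⟩
  · exact ⟨0, Or.inr h⟩
  · exact ⟨1, Or.inl h⟩
  · exact ⟨1, Or.inr h⟩
  · exact ⟨2, Or.inl h⟩
  · exact ⟨2, Or.inr h⟩

omit [Finite G] [Finite E] in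
theorem e_ne (hD : FG ρ b t₁ t₂ t₃ e₁ e₂ e₃) {i j : Fin 3} (hij : i ≠ j) :
    (![e₁, e₂, e₃] : Fin 3 → E) i ≠ (![e₁, e₂, e₃] : Fin 3 → E) j ∧
      (![e₁, e₂, e₃] : Fin 3 → E) i ≠ -(![e₁, e₂, e₃] : Fin 3 → E) j := by
  have a1 := e2_ne hD
  have a2 := e3_ne hD
  have a3 := e3_ne2 hD
  have a4 : e₁ ≠ e₂ ∧ e₁ ≠ -e₂ := by
    refine ⟨fun hh => a1.1 hh.symm, fun hh => a1.2 ?_⟩
    rw [hh, neg_neg]
  have a5 : e₁ ≠ e₃ ∧ e₁ ≠ -e₃ := by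
    refine ⟨fun hh => a2.1 hh.symm, fun hh => a2.2 ?_⟩
    rw [hh, neg_neg]
  have a6 : e₂ ≠ e₃ ∧ e₂ ≠ -e₃ := by
    refine ⟨fun hh => a3.1 hh.symm, fun hh => a3.2 ?_⟩
    rw [hh, neg_neg]
  fin_cases i <;> fin_cases j <;>
    first
      | exact absurd rfl hij
      | simpa using a1
      | simpa using a2
      | simpa using a3
      | simpa using a4
      | simpa using a5
      | simpa using a6

omit [Finite G] [Finite E] in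
theorem ln_unique (hD : FG ρ b t₁ t₂ t₃ e₁ e₂ e₃) {i j : Fin 3} {x : E}
    (hi : Ln e₁ e₂ e₃ i x) (hj : Ln e₁ e₂ e₃ j x) : i = j := by
  by_contra hij
  obtain ⟨h1, h2⟩ := e_ne hD hij
  rcases hi with hi | hi <;> rcases hj with hj | hj
  · exact h1 (hi.symm.trans hj)
  · exact h2 (hi.symm.trans hj)
  · apply h2
    have h3 := hi.symm.trans hj
    rw [← h3, neg_neg]
  · apply h1
    exact neg_injective (hi.symm.trans hj)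

omit [Finite G] [Finite E] in
theorem ln_b (hD : FG ρ b t₁ t₂ t₃ e₁ e₂ e₃) {i : Fin 3} {x : E} (hi : Ln e₁ e₂ e₃ i x) :
    Ln e₁ e₂ e₃ (i + 1) (ρ b x) := by
  have key : ρ b ((![e₁, e₂, e₃] : Fin 3 → E) i) = (![e₁, e₂, e₃] : Fin 3 → E) (i + 1) := by
    fin_cases i
    · simpa using hD.be1
    · simpa using hD.be2
    · simpa using hD.be3
  rcases hi with rfl | rfl
  · left; exact key
  · right; rw [map_neg, key]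

omit [Finite G] [Finite E] in
theorem ln_of_pm {i : Fin 3} {x y : E} (hx : Ln e₁ e₂ e₃ i x) (h : y = x ∨ y = -x) :
    Ln e₁ e₂ e₃ i y := by
  rcases h with rfl | rfl
  · exact hx
  · rcases hx with rfl | rfl
    · right; rfl
    · left; rw [neg_neg]

omit [Finite G] [Finite E] in
theorem fr_neg_mem {x : E} (hx : Fr e₁ e₂ e₃ x) : Fr e₁ e₂ e₃ (-x) := by
  rcases hx with rfl | rfl | rfl | rfl | rfl | rfl <;> simp [Fr]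

omit [Finite G] [Finite E] in
theorem lines_contra (hD : FG ρ b t₁ t₂ t₃ e₁ e₂ e₃) {p q p' q' : E}
    (hp : Fr e₁ e₂ e₃ p) (hq : Fr e₁ e₂ e₃ q)
    (hp' : (p' = p ∨ p' = -p) ∨ (p' = q ∨ p' = -q))
    (hq' : (q' = p ∨ q' = -p) ∨ (q' = q ∨ q' = -q))
    (hbp : (ρ b p' = p ∨ ρ b p' = -p) ∨ (ρ b p' = q ∨ ρ b p' = -q))
    (hbq : (ρ b q' = p ∨ ρ b q' = -p) ∨ (ρ b q' = q ∨ ρ b q' = -q))
    (hne : p' ≠ q' ∧ p' ≠ -q') : False := by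
  obtain ⟨i, hi⟩ := ln_of_fr hp
  obtain ⟨j, hj⟩ := ln_of_fr hq
  have hk : ∃ k, Ln e₁ e₂ e₃ k p' ∧ (k = i ∨ k = j) := by
    rcases hp' with h | h
    · exact ⟨i, ln_of_pm hi h, Or.inl rfl⟩
    · exact ⟨j, ln_of_pm hj h, Or.inr rfl⟩
  have hl : ∃ l, Ln e₁ e₂ e₃ l q' ∧ (l = i ∨ l = j) := by
    rcases hq' with h | h
    · exact ⟨i, ln_of_pm hi h, Or.inl rfl⟩
    · exact ⟨j, ln_of_pm hj h, Or.inr rfl⟩
  obtain ⟨k, hk, hki⟩ := hk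
  obtain ⟨l, hl, hli⟩ := hl
  have hkl : k ≠ l := by
    rintro rfl
    rcases hk with hk | hk <;> rcases hl with hl | hl
    · exact hne.1 (hk.trans hl.symm)
    · apply hne.2; rw [hk, hl, neg_neg]
    · apply hne.2; rw [hk, hl]
    · exact hne.1 (hk.trans hl.symm)
  have h1 : k + 1 = i ∨ k + 1 = j := by
    rcases hbp with h | h
    · left; exact ln_unique hD (ln_b hD hk) (ln_of_pm hi h)
    · right; exact ln_unique hD (ln_b hD hk) (ln_of_pm hj h)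
  have h2 : l + 1 = i ∨ l + 1 = j := by
    rcases hbq with h | h
    · left; exact ln_unique hD (ln_b hD hl) (ln_of_pm hi h)
    · right; exact ln_unique hD (ln_b hD hl) (ln_of_pm hj h)
  have key : ∀ i j k l : Fin 3, k ≠ l → (k = i ∨ k = j) → (l = i ∨ l = j) →
      (k + 1 = i ∨ k + 1 = j) → (l + 1 = i ∨ l + 1 = j) → False := by decide
  exact key i j k l hkl hki hli h1 h2

omit [Finite G] [Finite E] in
theorem fr_b (hD : FG ρ b t₁ t₂ t₃ e₁ e₂ e₃) {x : E} (hx : Fr e₁ e₂ e₃ x) : Fr e₁ e₂ e₃ (ρ b x) := by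
  rcases hx with rfl | rfl | rfl | rfl | rfl | rfl
  · right; right; left; exact hD.be1
  · right; right; right; left; rw [map_neg, hD.be1]
  · right; right; right; right; left; exact hD.be2
  · right; right; right; right; right; rw [map_neg, hD.be2]
  · left; exact hD.be3
  · right; left; rw [map_neg, hD.be3]

omit [Finite G] [Finite E] in
theorem reduce {x p q z : E} (hf : Fr x p q z) (hz : Fr e₁ e₂ e₃ z) (hx : ¬ Fr e₁ e₂ e₃ x) :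
    (z = p ∨ z = -p) ∨ (z = q ∨ z = -q) := by
  rcases hf with h | h | h | h | h | h
  · rw [h] at hz; exact absurd hz hx
  · have : x = -z := by rw [h, neg_neg]
    rw [this] at hx
    exact absurd (fr_neg_mem hz) hx
  · left; left; exact h
  · left; right; exact h
  · right; left; exact h
  · right; right; exact h

/-- Two vectors off the frame agree up to sign. -/
theorem two_extra (h : Sett ρ R b) (hD : FG ρ b t₁ t₂ t₃ e₁ e₂ e₃)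
    (hcm : ∀ x ∈ Cl R t₁ t₂ t₃, ∀ y ∈ Cl R t₁ t₂ t₃, x * y = y * x)
    {b₁ b₂ u₁ u₂ u₃ u₁' u₂' u₃' : G} {x p q y p' q' : E}
    (Dx : DD ρ R b t₁ t₂ t₃ b₁ u₁ u₂ u₃ x p q)
    (Dy : DD ρ R b t₁ t₂ t₃ b₂ u₁' u₂' u₃' y p' q')
    (hx : ¬ Fr e₁ e₂ e₃ x) (hy : ¬ Fr e₁ e₂ e₃ y) : y = x ∨ y = -x := by
  by_contra hne
  push Not at hne
  have B0 := DD.base h hD
  have h1 : Fr e₁ e₂ e₃ p ∧ Fr e₁ e₂ e₃ q := by
    rcases pair_dd h hcm B0 Dx with ⟨a, _⟩ | ⟨a, c⟩ | ⟨_, a⟩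
    · exact absurd a hx
    · exact ⟨a, c⟩
    · exact absurd a hx
  have h2 : Fr e₁ e₂ e₃ p' ∧ Fr e₁ e₂ e₃ q' := by
    rcases pair_dd h hcm B0 Dy with ⟨a, _⟩ | ⟨a, c⟩ | ⟨_, a⟩
    · exact absurd a hy
    · exact ⟨a, c⟩
    · exact absurd a hy
  have hfix : ρ b y = y := by
    have m1 : t₁ ∈ Cl R t₁ t₂ t₃ := B0.u1
    have m2 : t₂ ∈ Cl R t₁ t₂ t₃ := B0.u2
    exact (class₁ hD Dy.fg (hcm _ m1 _ Dy.u1) (hcm _ m1 _ Dy.u2) (hcm _ m2 _ Dy.u1)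
      (hcm _ m2 _ Dy.u2)).resolve_right hy
  have hyf : ¬ Fr x p q y := by
    rintro (a | a | a | a | a | a)
    · exact hne.1 a
    · exact hne.2 a
    · rw [a] at hy; exact hy h1.1
    · rw [a] at hy; exact hy (fr_neg_mem h1.1)
    · rw [a] at hy; exact hy h1.2
    · rw [a] at hy; exact hy (fr_neg_mem h1.2)
  have h3 : Fr x p q p' ∧ Fr x p q q' := by
    rcases pair_dd h hcm Dx Dy with ⟨a, _⟩ | ⟨a, c⟩ | ⟨_, a⟩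
    · exact absurd a hyf
    · exact ⟨a, c⟩
    · exact absurd a hyf
  have Dyb := DD.conj_b h hD Dy
  rw [hfix] at Dyb
  have h4 : Fr x p q (ρ b p') ∧ Fr x p q (ρ b q') := by
    rcases pair_dd h hcm Dx Dyb with ⟨a, _⟩ | ⟨a, c⟩ | ⟨_, a⟩
    · exact absurd a hyf
    · exact ⟨a, c⟩
    · exact absurd a hyf
  refine lines_contra hD h1.1 h1.2 (reduce h3.1 h2.1 hx) (reduce h3.2 h2.2 hx)
    (reduce h4.1 (fr_b hD h2.1) hx) (reduce h4.2 (fr_b hD h2.2) hx) ?_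
  exact ⟨(e2_ne Dy.fg.shift).1.symm.symm |> fun a => (e3_ne2 Dy.fg).1.symm,
    fun a => (e3_ne2 Dy.fg).2 (by rw [a, neg_neg])⟩

/-- **`W` is spanned by four vectors** when the conjugates of the four-group commute. -/
theorem span4 (h : Sett ρ R b) (hD : FG ρ b t₁ t₂ t₃ e₁ e₂ e₃) (ht1 : t₁ ∈ R)
    (hcm : ∀ x ∈ Cl R t₁ t₂ t₃, ∀ y ∈ Cl R t₁ t₂ t₃, x * y = y * x) :
    ∃ f₀ : E, ∀ w ∈ W ρ R, ∃ a₁ a₂ a₃ a₄ : ZMod 3, w = a₁ • e₁ + a₂ • e₂ + a₃ • e₃ + a₄ • f₀ := by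
  have B0 := DD.base h hD
  -- translates are first vectors of derived data
  have hT : ∀ r ∈ R, ∀ x, (x = ρ r e₁ ∨ x = ρ r e₂ ∨ x = ρ r e₃) →
      ∃ (b' u₁ u₂ u₃ : G) (p q : E), DD ρ R b t₁ t₂ t₃ b' u₁ u₂ u₃ x p q := by
    intro r hr x hx
    rcases hx with rfl | rfl | rfl
    · exact ⟨_, _, _, _, _, _, DD.conj_r h B0 hr⟩
    · exact ⟨_, _, _, _, _, _, DD.conj_r h B0.shift hr⟩
    · exact ⟨_, _, _, _, _, _, DD.conj_r h B0.shift.shift hr⟩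
  let Good : E → Prop := fun x => ∃ (b' u₁ u₂ u₃ : G) (p q : E),
    DD ρ R b t₁ t₂ t₃ b' u₁ u₂ u₃ x p q
  have hex : ∃ f₀ : E, ∀ x, Good x → Fr e₁ e₂ e₃ x ∨ x = f₀ ∨ x = -f₀ := by
    by_cases hc : ∃ x, Good x ∧ ¬ Fr e₁ e₂ e₃ x
    · obtain ⟨x₀, ⟨b₁, u₁, u₂, u₃, p, q, Dx⟩, hx₀⟩ := hc
      refine ⟨x₀, fun y hy => ?_⟩
      by_cases hyF : Fr e₁ e₂ e₃ y
      · exact Or.inl hyF
      · obtain ⟨b₂, u₁', u₂', u₃', p', q', Dy⟩ := hy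
        exact Or.inr (two_extra h hD hcm Dx Dy hx₀ hyF)
    · push Not at hc
      exact ⟨0, fun x hx => Or.inl (hc x hx)⟩
  obtain ⟨f₀, hf₀⟩ := hex
  refine ⟨f₀, fun w hw => ?_⟩
  rw [W_eq_Y h hD ht1] at hw
  induction hw using Submodule.span_induction with
  | mem x hx =>
    obtain ⟨r, hr, hx⟩ := hx
    obtain ⟨b', u₁, u₂, u₃, p, q, Dx⟩ := hT r hr x hx
    rcases hf₀ x ⟨b', u₁, u₂, u₃, p, q, Dx⟩ with hfr | hh | hh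
    · rcases hfr with a | a | a | a | a | a
      · exact ⟨1, 0, 0, 0, by rw [a]; simp⟩
      · exact ⟨-1, 0, 0, 0, by rw [a]; simp⟩
      · exact ⟨0, 1, 0, 0, by rw [a]; simp⟩
      · exact ⟨0, -1, 0, 0, by rw [a]; simp⟩
      · exact ⟨0, 0, 1, 0, by rw [a]; simp⟩
      · exact ⟨0, 0, -1, 0, by rw [a]; simp⟩
    · exact ⟨0, 0, 0, 1, by rw [hh]; simp⟩
    · exact ⟨0, 0, 0, -1, by rw [hh]; simp⟩
  | zero => exact ⟨0, 0, 0, 0, by simp⟩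
  | add x y _ _ hx hy =>
    obtain ⟨a₁, a₂, a₃, a₄, rfl⟩ := hx
    obtain ⟨c₁, c₂, c₃, c₄, rfl⟩ := hy
    refine ⟨a₁ + c₁, a₂ + c₂, a₃ + c₃, a₄ + c₄, ?_⟩
    simp only [add_smul]; abel
  | smul c x _ hx =>
    obtain ⟨a₁, a₂, a₃, a₄, rfl⟩ := hx
    refine ⟨c * a₁, c * a₂, c * a₃, c * a₄, ?_⟩
    simp only [smul_add, mul_smul]

/-- Four vectors span at most eighty-one vectors. -/
theorem card_le_of_span4 {U : Submodule (ZMod 3) E} {f₁ f₂ f₃ f₄ : E}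
    (hU : ∀ w ∈ U, ∃ a₁ a₂ a₃ a₄ : ZMod 3, w = a₁ • f₁ + a₂ • f₂ + a₃ • f₃ + a₄ • f₄) :
    Nat.card U ≤ 81 := by
  have hc : ∀ x : U, ∃ p : ZMod 3 × ZMod 3 × ZMod 3 × ZMod 3,
      (x : E) = p.1 • f₁ + p.2.1 • f₂ + p.2.2.1 • f₃ + p.2.2.2 • f₄ := by
    rintro ⟨x, hx⟩
    obtain ⟨a₁, a₂, a₃, a₄, h⟩ := hU x hx
    exact ⟨(a₁, a₂, a₃, a₄), h⟩
  choose ψ hψ using hc
  have hinj : Function.Injective ψ := by
    intro x y hxy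
    apply Subtype.ext
    rw [hψ x, hψ y, hxy]
  have h1 := Nat.card_le_card_of_injective ψ hinj
  have h2 : Nat.card (ZMod 3 × ZMod 3 × ZMod 3 × ZMod 3) = 81 := by
    simp only [Nat.card_prod]; simp
  rwa [h2] at h1

/-- The bound when the conjugates commute. -/
theorem card_W_le (h : Sett ρ R b) (hD : FG ρ b t₁ t₂ t₃ e₁ e₂ e₃) (ht1 : t₁ ∈ R)
    (hcm : ∀ x ∈ Cl R t₁ t₂ t₃, ∀ y ∈ Cl R t₁ t₂ t₃, x * y = y * x) :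
    Nat.card (W ρ R) ≤ 81 := by
  obtain ⟨f₀, hf⟩ := span4 h hD ht1 hcm
  exact card_le_of_span4 hf

end Cfsg.Agent.Lib.CubF
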