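import Mathlib
import Cfsg.Agent.Lib.CubF

/-!
# The centralizer of `b` in `R` acts by scalars when `W` is small
-/

set_option autoImplicit false
set_option linter.unusedSectionVars false
set_option linter.unusedVariables false

namespace Cfsg.Agent.Lib.CubG

open Cfsg.Agent.Lib.CubA Cfsg.Agent.Lib.CubB Cfsg.Agent.Lib.CubC Cfsg.Agent.Lib.CubC.Sett
  Cfsg.Agent.Lib.CubD Cfsg.Agent.Lib.CubE Cfsg.Agent.Lib.CubF

variable {G : Type*} [Group G] {E : Type*} [AddCommGroup E] [Module (ZMod 3) E]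
variable {ρ : Representation (ZMod 3) G E} {R : Subgroup G}
variable {b t₁ t₂ t₃ : G} {e₁ e₂ e₃ : E}

/-- Determinants are trivial on `R`. -/
theorem det_R (h : Sett ρ R b) {r : G} (hr : r ∈ R) : LinearMap.det (ρ r) = 1 := by
  let φ : G →* ZMod 3 := (LinearMap.det : (E →ₗ[ZMod 3] E) →* ZMod 3).comp ρ
  have hL : R ≤ φ.ker := by
    refine h.gen φ.ker (fun r _ => ?_)
    rw [MonoidHom.mem_ker]
    simp only [map_mul]
    have h1 : φ r * φ r⁻¹ = 1 := by rw [← map_mul, mul_inv_cancel, map_one]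
    have h2 : φ b * φ b⁻¹ = 1 := by rw [← map_mul, mul_inv_cancel, map_one]
    calc φ r * φ b * φ r⁻¹ * φ b⁻¹ = (φ r * φ r⁻¹) * (φ b * φ b⁻¹) := by ring
      _ = 1 := by rw [h1, h2, one_mul]
  exact MonoidHom.mem_ker.mp (hL hr)

/-- The determinant of an involution with an odd dimensional negative part. -/
theorem det_of_invol [Finite E] {T : E →ₗ[ZMod 3] E} (hT : ∀ v, T (T v) = v)
    (hc : Nat.card (LinearMap.ker (T + 1)) = 3 ∨ Nat.card (LinearMap.ker (T + 1)) = 27) :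
    LinearMap.det T = -1 := by
  have : Module.Finite (ZMod 3) E := Module.Finite.of_finite
  set P := LinearMap.ker (T - 1) with hP
  set N := LinearMap.ker (T + 1) with hN
  have memP : ∀ v, v ∈ P ↔ T v = v := by
    intro v
    simp only [hP, LinearMap.mem_ker, LinearMap.sub_apply, Module.End.one_apply, sub_eq_zero]
  have memN : ∀ v, v ∈ N ↔ T v = -v := by
    intro v
    simp only [hN, LinearMap.mem_ker, LinearMap.add_apply, Module.End.one_apply]
    exact add_eq_zero_iff_eq_neg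
  have hcompl : IsCompl P N := by
    constructor
    · rw [Submodule.disjoint_def]
      intro v h1 h2
      have a1 := (memP v).1 h1
      have a2 := (memN v).1 h2
      exact eq_zero_of_eq_neg (a1.symm.trans a2)
    · rw [codisjoint_iff, eq_top_iff]
      intro v _
      rw [Submodule.mem_sup]
      refine ⟨-(v + T v), (memP _).2 ?_, -(v - T v), (memN _).2 ?_, ?_⟩
      · rw [map_neg, map_add, hT, add_comm]
      · rw [map_neg, map_sub, hT]; abel
      · have h3 : -(v + T v) + -(v - T v) = -v + -v := by abel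
        rw [h3, neg_eq_add v]
        calc v + v + (v + v) = v + v + v + v := by abel
          _ = v := by rw [three_add, zero_add]
  let e := Submodule.prodEquivOfIsCompl P N hcompl
  let f : (P × N) →ₗ[ZMod 3] (P × N) :=
    LinearMap.prodMap (LinearMap.id) ((-1 : ZMod 3) • (LinearMap.id : N →ₗ[ZMod 3] N))
  have hTe : T = (e : (P × N) →ₗ[ZMod 3] E) ∘ₗ f ∘ₗ (e.symm : E →ₗ[ZMod 3] (P × N)) := by
    apply LinearMap.ext
    intro v
    obtain ⟨⟨p, n⟩, rfl⟩ := e.surjective v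
    simp only [LinearMap.comp_apply, LinearEquiv.coe_coe, LinearEquiv.symm_apply_apply]
    have h1 : e (p, n) = (p : E) + n := by
      simp [e, Submodule.coe_prodEquivOfIsCompl']
    have h2 : f (p, n) = (p, (-1 : ZMod 3) • n) := by
      simp [f]
    rw [h2, h1]
    have h3 : e (p, (-1 : ZMod 3) • n) = (p : E) + ((-1 : ZMod 3) • n : N) := by
      simp [e, Submodule.coe_prodEquivOfIsCompl']
    rw [h3, map_add, (memP p).1 p.2, (memN n).1 n.2]
    simp
  rw [hTe, LinearMap.det_conj]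
  simp only [f]
  rw [LinearMap.det_prodMap, LinearMap.det_id, one_mul, LinearMap.det_smul, LinearMap.det_id, mul_one]
  have hcard := Module.natCard_eq_pow_finrank (K := ZMod 3) (V := N)
  rw [Nat.card_zmod] at hcard
  rcases hc with hc | hc
  · rw [hc] at hcard
    have : Module.finrank (ZMod 3) N = 1 := by
      have h3 : (3 : ℕ) ^ 1 = 3 ^ Module.finrank (ZMod 3) N := by simpa using hcard
      exact (Nat.pow_right_injective (le_refl 2 |>.trans (by norm_num : 2 ≤ 3)) h3).symm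
    rw [this]; simp
  · rw [hc] at hcard
    have : Module.finrank (ZMod 3) N = 3 := by
      have h3 : (3 : ℕ) ^ 3 = 3 ^ Module.finrank (ZMod 3) N := by
        rw [← hcard]; norm_num
      exact (Nat.pow_right_injective (by norm_num : 2 ≤ 3) h3).symm
    rw [this]
    decide


/-- Tuples of coordinates. -/
abbrev M6 := ZMod 3 × ZMod 3 × ZMod 3 × ZMod 3 × ZMod 3 × ZMod 3

/-- Composition of the tuples. -/
def mulT (c c' : M6) : M6 :=
  (c'.1 * c.1 + c'.2.1 * c.2.2.1 + c'.2.2.1 * c.2.1 + c'.2.2.2.1 * c.2.2.2.2.1,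
   c'.1 * c.2.1 + c'.2.1 * c.1 + c'.2.2.1 * c.2.2.1 + c'.2.2.2.1 * c.2.2.2.2.1,
   c'.1 * c.2.2.1 + c'.2.1 * c.2.1 + c'.2.2.1 * c.1 + c'.2.2.2.1 * c.2.2.2.2.1,
   (c'.1 + c'.2.1 + c'.2.2.1) * c.2.2.2.1 + c'.2.2.2.1 * c.2.2.2.2.2,
   c'.2.2.2.2.1 * (c.1 + c.2.1 + c.2.2.1) + c'.2.2.2.2.2 * c.2.2.2.2.1,
   c'.2.2.2.2.2 * c.2.2.2.2.2)

/-- The action in coordinates. -/
structure Tup (ρ : Representation (ZMod 3) G E) (y : G) (e₁ e₂ e₃ v : E) (c : M6) : Prop where
  h1 : ρ y e₁ = c.1 • e₁ + c.2.1 • e₂ + c.2.2.1 • e₃ + c.2.2.2.1 • v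
  h2 : ρ y e₂ = c.2.2.1 • e₁ + c.1 • e₂ + c.2.1 • e₃ + c.2.2.2.1 • v
  h3 : ρ y e₃ = c.2.1 • e₁ + c.2.2.1 • e₂ + c.1 • e₃ + c.2.2.2.1 • v
  h4 : ρ y v = c.2.2.2.2.1 • (e₁ + e₂ + e₃) + c.2.2.2.2.2 • v

theorem Tup.mul {y y' : G} {v : E} {c c' : M6} (H : Tup ρ y e₁ e₂ e₃ v c)
    (H' : Tup ρ y' e₁ e₂ e₃ v c') : Tup ρ (y * y') e₁ e₂ e₃ v (mulT c c') := by
  obtain ⟨α, β, γ, ε, μ, l⟩ := c
  obtain ⟨α', β', γ', ε', μ', l'⟩ := c'
  obtain ⟨a1, a2, a3, a4⟩ := H
  obtain ⟨a1', a2', a3', a4'⟩ := H'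
  simp only at a1 a2 a3 a4 a1' a2' a3' a4'
  have h3 : ε + ε + ε = 0 := three_add ε
  constructor
  · simp only [mulT]
    rw [act_mul, a1', map_add, map_add, map_add, map_smul, map_smul, map_smul, map_smul, a1, a2, a3,
      a4]
    module
  · simp only [mulT]
    rw [act_mul, a2', map_add, map_add, map_add, map_smul, map_smul, map_smul, map_smul, a1, a2, a3,
      a4]
    module
  · simp only [mulT]
    rw [act_mul, a3', map_add, map_add, map_add, map_smul, map_smul, map_smul, map_smul, a1, a2, a3,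
      a4]
    module
  · simp only [mulT]
    rw [act_mul, a4', map_add, map_smul, map_smul, map_add, map_add, a1, a2, a3, a4]
    have key : μ' • (α • e₁ + β • e₂ + γ • e₃ + ε • v + (γ • e₁ + α • e₂ + β • e₃ + ε • v) +
        (β • e₁ + γ • e₂ + α • e₃ + ε • v)) + l' • (μ • (e₁ + e₂ + e₃) + l • v) =
        (μ' * (α + β + γ) + l' * μ) • (e₁ + e₂ + e₃) + (l' * l) • v + (μ' * (ε + ε + ε)) • v := by
      module
    rw [key, h3]
    simp

theorem sq_norm : ∀ c : M6, c.1 + c.2.1 + c.2.2.1 ≠ 0 → c.2.2.2.2.2 ≠ 0 →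
    (mulT c c).1 + (mulT c c).2.1 + (mulT c c).2.2.1 = 1 ∧ (mulT c c).2.2.2.2.2 = 1 := by
  decide +kernel

theorem cube_one : ∀ d : M6, d.1 + d.2.1 + d.2.2.1 = 1 → d.2.2.2.2.2 = 1 →
    mulT (mulT d d) d = (1, 0, 0, 0, 0, 1) := by
  decide +kernel

variable [Finite G] [Finite E]

omit [Finite G] in
/-- A nonzero vector generates a subspace of order three. -/
theorem card_ge_3 {X : Submodule (ZMod 3) E} {x : E} (hx : x ∈ X) (hx0 : x ≠ 0) : 3 ≤ Nat.card X := by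
  let ψ : ZMod 3 → X := fun a => ⟨a • x, X.smul_mem a hx⟩
  have hinj : Function.Injective ψ := by
    intro a a' haa
    have : a • x = a' • x := congrArg Subtype.val haa
    exact eq_of_smul_eq hx0 this
  have h1 := Nat.card_le_card_of_injective ψ hinj
  rwa [Nat.card_zmod] at h1

omit [Finite G] in
/-- A long Jordan chain generates a subspace of order at least twenty-seven. -/
theorem card_ge_27 (hb3 : b * b * b = 1) {X : Submodule (ZMod 3) E} (hX : ∀ v ∈ X, ρ b v ∈ X)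
    {x : E} (hx : x ∈ X) (hne : ρ b (ρ b x - x) - (ρ b x - x) ≠ 0) : 27 ≤ Nat.card X := by
  let D : E →ₗ[ZMod 3] E := ρ b - 1
  have hDa : ∀ v, D v = ρ b v - v := fun v => rfl
  have hDX : ∀ v ∈ X, D v ∈ X := fun v hv => by
    rw [hDa]; exact X.sub_mem (hX v hv) hv
  have hD3 : ∀ v, D (D (D v)) = 0 := by
    intro v
    simp only [hDa, map_sub]
    have h1 : ρ b (ρ b (ρ b v)) = v := by
      rw [← act_mul, ← act_mul, hb3, act_one]
    rw [h1]
    have h2 : v - ρ b (ρ b v) - (ρ b (ρ b v) - ρ b v) - (ρ b (ρ b v) - ρ b v - (ρ b v - v)) =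
        (ρ b v + ρ b v + ρ b v) - (ρ b (ρ b v) + ρ b (ρ b v) + ρ b (ρ b v)) := by abel
    rw [h2, three_add, three_add, sub_zero]
  have hne' : D (D x) ≠ 0 := hne
  let ψ : ZMod 3 × ZMod 3 × ZMod 3 → X := fun p =>
    ⟨p.1 • x + p.2.1 • D x + p.2.2 • D (D x),
      X.add_mem (X.add_mem (X.smul_mem _ hx) (X.smul_mem _ (hDX _ hx)))
        (X.smul_mem _ (hDX _ (hDX _ hx)))⟩
  have hinj : Function.Injective ψ := by
    rintro ⟨a, c, d⟩ ⟨a', c', d'⟩ hp
    have h0 : a • x + c • D x + d • D (D x) = a' • x + c' • D x + d' • D (D x) :=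
      congrArg Subtype.val hp
    have h1 : a = a' := by
      have := congrArg (fun u => D (D u)) h0
      simp only [map_add, map_smul, hD3, smul_zero, add_zero] at this
      exact eq_of_smul_eq hne' this
    subst h1
    have h2 : c = c' := by
      have := congrArg D h0
      simp only [map_add, map_smul, hD3, smul_zero, add_zero] at this
      exact eq_of_smul_eq hne' (add_left_cancel this)
    subst h2
    have h3 : d = d' := eq_of_smul_eq hne' (add_left_cancel h0)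
    subst h3
    rfl
  have h1 := Nat.card_le_card_of_injective ψ hinj
  have h2 : Nat.card (ZMod 3 × ZMod 3 × ZMod 3) = 27 := by
    simp only [Nat.card_prod]; simp
  rwa [h2] at h1

/-- The negative part of the action of an element of `R` lies in `W`. -/
theorem neg_mem_W (h : Sett ρ R b) {y : G} (hy : y ∈ R) {v : E} (hv : ρ y v = -v) : v ∈ W ρ R := by
  rw [mem_W]
  have h1 := avg_act (ρ := ρ) hy v
  rw [hv, map_neg] at h1
  exact eq_zero_of_eq_neg h1.symm

/-- **Involutions of `C_R(b)` are scalars on `W`.** -/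
theorem inv_scalar (h : Sett ρ R b) (hD : FG ρ b t₁ t₂ t₃ e₁ e₂ e₃) (ht1 : t₁ ∈ R)
    (hW : Nat.card (W ρ R) ≤ 81) {y : G} (hy : y ∈ R) (hyb : y * b = b * y) (hy2 : y * y = 1) :
    (∀ w ∈ W ρ R, ρ y w = w) ∨ (∀ w ∈ W ρ R, ρ y w = -w) := by
  by_contra hno
  push Not at hno
  obtain ⟨⟨w₁, hw₁, hw₁'⟩, ⟨w₂, hw₂, hw₂'⟩⟩ := hno
  have hT : ∀ v, ρ y (ρ y v) = v := by
    intro v
    rw [← act_mul, hy2, act_one]
  have hbT : ∀ v, ρ y (ρ b v) = ρ b (ρ y v) := by
    intro v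
    rw [← act_mul, ← act_mul, hyb]
  set N := LinearMap.ker (ρ y + 1) with hN
  set P := W ρ R ⊓ LinearMap.ker (ρ y - 1) with hP
  have memN : ∀ v, v ∈ N ↔ ρ y v = -v := by
    intro v
    simp only [hN, LinearMap.mem_ker, LinearMap.add_apply, Module.End.one_apply]
    exact add_eq_zero_iff_eq_neg
  have memP : ∀ v, v ∈ P ↔ v ∈ W ρ R ∧ ρ y v = v := by
    intro v
    simp only [hP, Submodule.mem_inf, LinearMap.mem_ker, LinearMap.sub_apply, Module.End.one_apply,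
      sub_eq_zero]
  have hdet : LinearMap.det (ρ y) = -1 := by
    apply det_of_invol hT
    rw [← hN]
    -- the two parts are nonzero
    have hx1 : ρ y w₁ - w₁ ∈ N := by
      rw [memN, map_sub, hT]; abel
    have hx10 : ρ y w₁ - w₁ ≠ 0 := fun h0 => hw₁' (sub_eq_zero.mp h0)
    have hx2 : ρ y w₂ + w₂ ∈ P := by
      rw [memP]
      refine ⟨(W ρ R).add_mem (W_act hy hw₂) hw₂, ?_⟩
      rw [map_add, hT]; abel
    have hx20 : ρ y w₂ + w₂ ≠ 0 := fun h0 => hw₂' (eq_neg_of_add_eq_zero_left h0)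
    have c1 : 3 ≤ Nat.card N := card_ge_3 hx1 hx10
    have c2 : 3 ≤ Nat.card P := card_ge_3 hx2 hx20
    -- the product bound
    have hprod : Nat.card P * Nat.card N ≤ 81 := by
      let ψ : P × N → W ρ R := fun p => ⟨(p.1 : E) + p.2,
        (W ρ R).add_mem ((memP _).1 p.1.2).1 (neg_mem_W h hy ((memN _).1 p.2.2))⟩
      have hinj : Function.Injective ψ := by
        rintro ⟨⟨p, hp⟩, ⟨n, hn⟩⟩ ⟨⟨p', hp'⟩, ⟨n', hn'⟩⟩ hh
        have h0 : p + n = p' + n' := congrArg Subtype.val hh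
        have a1 := ((memP _).1 hp).2
        have a2 := ((memP _).1 hp').2
        have a3 := (memN _).1 hn
        have a4 := (memN _).1 hn'
        have h1 : p - p' = n' - n := by
          calc p - p' = (p + n) - n - p' := by abel
            _ = (p' + n') - n - p' := by rw [h0]
            _ = n' - n := by abel
        have h2 : ρ y (p - p') = p - p' := by rw [map_sub, a1, a2]
        have h3 : ρ y (n' - n) = -(n' - n) := by rw [map_sub, a3, a4]; abel
        rw [← h1] at h3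
        rw [h2] at h3
        have h4 := eq_zero_of_eq_neg h3
        have hpp : p = p' := sub_eq_zero.mp h4
        subst hpp
        have hnn : n = n' := add_left_cancel h0
        subst hnn
        rfl
      have h1 := Nat.card_le_card_of_injective ψ hinj
      rw [Nat.card_prod] at h1
      exact h1.trans hW
    -- the long chain
    have hNb : ∀ v ∈ N, ρ b v ∈ N := by
      intro v hv
      rw [memN, hbT, (memN v).1 hv, map_neg]
    have hPb : ∀ v ∈ P, ρ b v ∈ P := by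
      intro v hv
      obtain ⟨a1, a2⟩ := (memP v).1 hv
      rw [memP]
      exact ⟨W_b h a1, by rw [hbT, a2]⟩
    have he1 : e₁ ∈ W ρ R := (e_mem_W h hD ht1).1
    set ep := -(e₁ + ρ y e₁) with hep
    set en := -(e₁ - ρ y e₁) with hen
    have hepP : ep ∈ P := by
      rw [memP]
      refine ⟨(W ρ R).neg_mem ((W ρ R).add_mem he1 (W_act hy he1)), ?_⟩
      rw [hep, map_neg, map_add, hT, add_comm]
    have henN : en ∈ N := by
      rw [memN, hen, map_neg, map_sub, hT]; abel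
    have hsum : ep + en = e₁ := by
      rw [hep, hen]
      have h3 : -(e₁ + ρ y e₁) + -(e₁ - ρ y e₁) = -e₁ + -e₁ := by abel
      rw [h3, neg_eq_add e₁]
      calc e₁ + e₁ + (e₁ + e₁) = e₁ + e₁ + e₁ + e₁ := by abel
        _ = e₁ := by rw [three_add, zero_add]
    have hf : ρ b (ρ b e₁ - e₁) - (ρ b e₁ - e₁) ≠ 0 := by
      rw [map_sub, hD.be1, hD.be2]
      intro h0
      have h1 : (0 : E) + (1 : ZMod 3) • e₁ + (-1 - 1 : ZMod 3) • e₂ + (1 : ZMod 3) • e₃ =
          (0 : E) + (0 : ZMod 3) • e₁ + (0 : ZMod 3) • e₂ + (0 : ZMod 3) • e₃ := by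
        have : (0 : E) + (1 : ZMod 3) • e₁ + (-1 - 1 : ZMod 3) • e₂ + (1 : ZMod 3) • e₃ =
            e₃ - e₂ - (e₂ - e₁) := by
          simp only [sub_smul, neg_smul, one_smul]; abel
        rw [this, h0]; simp
      have := hD.coord₁ (map_zero _) (map_zero _) (map_zero _) (map_zero _) h1
      exact absurd this (by decide)
    have hcases : ρ b (ρ b ep - ep) - (ρ b ep - ep) ≠ 0 ∨ ρ b (ρ b en - en) - (ρ b en - en) ≠ 0 := by
      by_contra hc
      push Not at hc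
      apply hf
      rw [← hsum]
      simp only [map_add, map_sub]
      have h1 := hc.1
      have h2 := hc.2
      simp only [map_sub] at h1 h2
      calc _ = (ρ b (ρ b ep) - ρ b ep - (ρ b ep - ep)) + (ρ b (ρ b en) - ρ b en - (ρ b en - en)) := by
            abel
        _ = 0 := by rw [h1, h2, add_zero]
    rcases hcases with hc | hc
    · left
      have c3 : 27 ≤ Nat.card P := card_ge_27 h.b3 hPb hepP hc
      have : 27 * Nat.card N ≤ 81 := (Nat.mul_le_mul_right _ c3).trans hprod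
      omega
    · right
      have c3 : 27 ≤ Nat.card N := card_ge_27 h.b3 hNb henN hc
      have : Nat.card P * 27 ≤ 81 := (Nat.mul_le_mul_left _ c3).trans hprod
      have h9 : Nat.card N * 3 ≤ 81 := by
        have := (Nat.mul_le_mul_right (Nat.card N) c2).trans hprod
        omega
      omega
  rw [det_R h hy] at hdet
  exact absurd hdet (by decide)


/-- The frame when `W` is small. -/
theorem frame_of_card (h : Sett ρ R b) (hD : FG ρ b t₁ t₂ t₃ e₁ e₂ e₃) (ht1 : t₁ ∈ R)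
    (hW : Nat.card (W ρ R) ≤ 81) :
    ∃ v : E, v ∈ W ρ R ∧ ρ t₁ v = v ∧ ρ t₂ v = v ∧ ρ b v = v ∧
      ∀ w ∈ W ρ R, ∃ a₁ a₂ a₃ a₄ : ZMod 3, w = a₁ • e₁ + a₂ • e₂ + a₃ • e₃ + a₄ • v := by
  set C := W ρ R ⊓ (LinearMap.ker (ρ t₁ - 1) ⊓ LinearMap.ker (ρ t₂ - 1)) with hC
  have memC : ∀ v, v ∈ C ↔ v ∈ W ρ R ∧ ρ t₁ v = v ∧ ρ t₂ v = v := by
    intro v
    simp only [hC, Submodule.mem_inf, LinearMap.mem_ker, LinearMap.sub_apply, Module.End.one_apply,
      sub_eq_zero]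
  obtain ⟨he1, he2, he3⟩ := e_mem_W h hD ht1
  have hCW : ∀ w ∈ W ρ R, ∃ (c : E) (a₁ a₂ a₃ : ZMod 3), c ∈ C ∧
      w = a₁ • e₁ + a₂ • e₂ + a₃ • e₃ + c := by
    intro w hw
    obtain ⟨c, a₁, a₂, a₃, hv, hc1, hc2⟩ := hD.span w
    refine ⟨c, a₁, a₂, a₃, (memC c).2 ⟨?_, hc1, hc2⟩, by rw [hv]; abel⟩
    have : c = w - (a₁ • e₁ + a₂ • e₂ + a₃ • e₃) := by rw [hv]; abel
    rw [this]
    exact (W ρ R).sub_mem hw ((W ρ R).add_mem ((W ρ R).add_mem ((W ρ R).smul_mem _ he1)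
      ((W ρ R).smul_mem _ he2)) ((W ρ R).smul_mem _ he3))
  -- card bound
  have hcard : 27 * Nat.card C ≤ 81 := by
    let ψ : (ZMod 3 × ZMod 3 × ZMod 3) × C → W ρ R := fun p =>
      ⟨(p.2 : E) + p.1.1 • e₁ + p.1.2.1 • e₂ + p.1.2.2 • e₃,
        (W ρ R).add_mem ((W ρ R).add_mem ((W ρ R).add_mem ((memC _).1 p.2.2).1
          ((W ρ R).smul_mem _ he1)) ((W ρ R).smul_mem _ he2)) ((W ρ R).smul_mem _ he3)⟩
    have hinj : Function.Injective ψ := by
      rintro ⟨⟨a, c, d⟩, ⟨x, hx⟩⟩ ⟨⟨a', c', d'⟩, ⟨x', hx'⟩⟩ hh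
      have h0 : x + a • e₁ + c • e₂ + d • e₃ = x' + a' • e₁ + c' • e₂ + d' • e₃ :=
        congrArg Subtype.val hh
      obtain ⟨_, x1, x2⟩ := (memC x).1 hx
      obtain ⟨_, x1', x2'⟩ := (memC x').1 hx'
      have a1 := hD.coord₁ x1 x2 x1' x2' h0
      have a2 := hD.coord₂ x1 x2 x1' x2' h0
      have a3 := hD.coord₃ x1 x2 x1' x2' h0
      have a4 := hD.coord_c x1 x2 x1' x2' h0
      subst a1 a2 a3 a4
      rfl
    have h1 := Nat.card_le_card_of_injective ψ hinj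
    rw [Nat.card_prod] at h1
    have h2 : Nat.card (ZMod 3 × ZMod 3 × ZMod 3) = 27 := by
      simp only [Nat.card_prod]; simp
    rw [h2] at h1
    exact h1.trans hW
  by_cases hc0 : ∀ c ∈ C, c = 0
  · refine ⟨0, (W ρ R).zero_mem, map_zero _, map_zero _, map_zero _, fun w hw => ?_⟩
    obtain ⟨c, a₁, a₂, a₃, hc, hv⟩ := hCW w hw
    refine ⟨a₁, a₂, a₃, 0, ?_⟩
    rw [hv, hc0 c hc]; simp
  · push Not at hc0
    obtain ⟨v, hv, hv0⟩ := hc0
    obtain ⟨hvW, hv1, hv2⟩ := (memC v).1 hv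
    refine ⟨v, hvW, hv1, hv2, hD.bfix v hv1 hv2, fun w hw => ?_⟩
    obtain ⟨c, a₁, a₂, a₃, hc, hw'⟩ := hCW w hw
    let χ : ZMod 3 → C := fun a => ⟨a • v, C.smul_mem a hv⟩
    have hχ : Function.Injective χ := by
      intro a a' haa
      exact eq_of_smul_eq hv0 (congrArg Subtype.val haa)
    have hbij := hχ.bijective_of_nat_card_le (by rw [Nat.card_zmod]; omega)
    obtain ⟨a₄, ha₄⟩ := hbij.2 ⟨c, hc⟩
    have : a₄ • v = c := congrArg Subtype.val ha₄
    exact ⟨a₁, a₂, a₃, a₄, by rw [hw', this]⟩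

/-- The tuple of an element of the centralizer of `b`. -/
theorem tup_exists (h : Sett ρ R b) (hD : FG ρ b t₁ t₂ t₃ e₁ e₂ e₃) (ht1 : t₁ ∈ R) {v : E}
    (hvW : v ∈ W ρ R) (hv1 : ρ t₁ v = v) (hv2 : ρ t₂ v = v) (hvb : ρ b v = v)
    (hF : ∀ w ∈ W ρ R, ∃ a₁ a₂ a₃ a₄ : ZMod 3, w = a₁ • e₁ + a₂ • e₂ + a₃ • e₃ + a₄ • v)
    {y : G} (hy : y ∈ R) (hyb : y * b = b * y) :
    ∃ c : M6, Tup ρ y e₁ e₂ e₃ v c ∧ c.1 + c.2.1 + c.2.2.1 ≠ 0 ∧ c.2.2.2.2.2 ≠ 0 := by
  obtain ⟨he1, he2, he3⟩ := e_mem_W h hD ht1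
  have hbT : ∀ x, ρ y (ρ b x) = ρ b (ρ y x) := by
    intro x
    rw [← act_mul, ← act_mul, hyb]
  obtain ⟨α, β, γ, ε, h1⟩ := hF _ (W_act hy he1)
  have h2 : ρ y e₂ = γ • e₁ + α • e₂ + β • e₃ + ε • v := by
    rw [← hD.be1, hbT, h1]
    simp only [map_add, map_smul, hD.be1, hD.be2, hD.be3, hvb]
    abel
  have h3 : ρ y e₃ = β • e₁ + γ • e₂ + α • e₃ + ε • v := by
    rw [← hD.be2, hbT, h2]
    simp only [map_add, map_smul, hD.be1, hD.be2, hD.be3, hvb]
    abel
  have hzero : ∀ x : E, ρ t₁ (0 : E) = 0 := fun _ => map_zero _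
  have hsv : ∀ a : ZMod 3, ρ t₁ (a • v) = a • v ∧ ρ t₂ (a • v) = a • v := by
    intro a
    rw [map_smul, map_smul, hv1, hv2]
    exact ⟨rfl, rfl⟩
  have hsne : α + β + γ ≠ 0 := by
    intro h0
    have hf : ρ y (e₁ + e₂ + e₃) = 0 := by
      rw [map_add, map_add, h1, h2, h3]
      have key : α • e₁ + β • e₂ + γ • e₃ + ε • v + (γ • e₁ + α • e₂ + β • e₃ + ε • v) +
          (β • e₁ + γ • e₂ + α • e₃ + ε • v) =
          (α + β + γ) • (e₁ + e₂ + e₃) + (ε + ε + ε) • v := by module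
      rw [key, h0, three_add ε]
      simp
    have hf0 : e₁ + e₂ + e₃ = 0 := act_inj ρ y (hf.trans (map_zero _).symm)
    have h5 : (0 : E) + (1 : ZMod 3) • e₁ + (1 : ZMod 3) • e₂ + (1 : ZMod 3) • e₃ =
        (0 : E) + (0 : ZMod 3) • e₁ + (0 : ZMod 3) • e₂ + (0 : ZMod 3) • e₃ := by
      simp only [one_smul, zero_smul, add_zero, zero_add]
      exact hf0
    have := hD.coord₁ (map_zero _) (map_zero _) (map_zero _) (map_zero _) h5
    exact absurd this (by decide)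
  by_cases hv0 : v = 0
  · refine ⟨(α, β, γ, 0, 0, 1), ?_, hsne, (by decide : (1 : ZMod 3) ≠ 0)⟩
    subst hv0
    refine ⟨?_, ?_, ?_, ?_⟩
    · simpa using h1
    · simpa using h2
    · simpa using h3
    · simp
  · obtain ⟨a₁, a₂, a₃, a₄, h4⟩ := hF _ (W_act hy hvW)
    have h5 : ρ b (ρ y v) = ρ y v := by
      rw [← hbT, hvb]
    rw [h4] at h5
    simp only [map_add, map_smul, hD.be1, hD.be2, hD.be3, hvb] at h5
    have h6 : a₄ • v + a₃ • e₁ + a₁ • e₂ + a₂ • e₃ = a₄ • v + a₁ • e₁ + a₂ • e₂ + a₃ • e₃ := by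
      calc a₄ • v + a₃ • e₁ + a₁ • e₂ + a₂ • e₃ = a₁ • e₂ + a₂ • e₃ + a₃ • e₁ + a₄ • v := by abel
        _ = a₁ • e₁ + a₂ • e₂ + a₃ • e₃ + a₄ • v := h5
        _ = _ := by abel
    obtain ⟨x1, x2⟩ := hsv a₄
    have c1 := hD.coord₁ x1 x2 x1 x2 h6
    have c2 := hD.coord₂ x1 x2 x1 x2 h6
    have h4' : ρ y v = a₁ • (e₁ + e₂ + e₃) + a₄ • v := by
      rw [h4, ← c2, c1]
      rw [← c1]
      have : a₃ = a₁ := c1
      subst this
      module
    refine ⟨(α, β, γ, ε, a₁, a₄), ⟨h1, h2, h3, h4'⟩, hsne, ?_⟩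
    show a₄ ≠ 0
    rintro rfl
    -- `v` would be a multiple of `e₁ + e₂ + e₃`
    set s := α + β + γ with hs
    have hf : ρ y (e₁ + e₂ + e₃) = s • (e₁ + e₂ + e₃) := by
      rw [map_add, map_add, h1, h2, h3]
      have key : α • e₁ + β • e₂ + γ • e₃ + ε • v + (γ • e₁ + α • e₂ + β • e₃ + ε • v) +
          (β • e₁ + γ • e₂ + α • e₃ + ε • v) =
          (α + β + γ) • (e₁ + e₂ + e₃) + (ε + ε + ε) • v := by module
      rw [key, three_add ε]
      simp [hs]
    have h7 : ρ y (s • v - a₁ • (e₁ + e₂ + e₃)) = 0 := by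
      rw [map_sub, map_smul, map_smul, h4', hf]
      simp only [zero_smul, add_zero]
      rw [smul_smul, smul_smul, mul_comm, sub_self]
    have h8 : s • v - a₁ • (e₁ + e₂ + e₃) = 0 := act_inj ρ y (h7.trans (map_zero _).symm)
    obtain ⟨x1', x2'⟩ := hsv s
    have h9 : s • v + (0 : ZMod 3) • e₁ + (0 : ZMod 3) • e₂ + (0 : ZMod 3) • e₃ =
        (0 : E) + a₁ • e₁ + a₁ • e₂ + a₁ • e₃ := by
      have := sub_eq_zero.mp h8
      rw [this]
      simp only [zero_smul, add_zero, zero_add, smul_add]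
    have h10 := hD.coord₁ x1' x2' (map_zero _) (map_zero _) h9
    have h11 := hD.coord_c x1' x2' (map_zero _) (map_zero _) h9
    rcases smul_eq_zero.mp h11 with h12 | h12
    · exact hsne h12
    · exact hv0 h12

/-- Elements of the centralizer of `b` have order at most two. -/
theorem y_sq (h : Sett ρ R b) (hD : FG ρ b t₁ t₂ t₃ e₁ e₂ e₃) (ht1 : t₁ ∈ R)
    (hW : Nat.card (W ρ R) ≤ 81) {y : G} (hy : y ∈ R) (hyb : y * b = b * y) : y * y = 1 := by
  obtain ⟨v, hvW, hv1, hv2, hvb, hF⟩ := frame_of_card h hD ht1 hW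
  obtain ⟨c, hc, hs, hl⟩ := tup_exists h hD ht1 hvW hv1 hv2 hvb hF hy hyb
  have h2 := hc.mul hc
  obtain ⟨hn1, hn2⟩ := sq_norm c hs hl
  have h3 := (h2.mul h2).mul h2
  rw [cube_one _ hn1 hn2] at h3
  set g := y * y * (y * y) * (y * y) with hg
  have hgR : g ∈ R := by
    simp only [hg]
    exact R.mul_mem (R.mul_mem (R.mul_mem hy hy) (R.mul_mem hy hy)) (R.mul_mem hy hy)
  have g1 : ρ g e₁ = e₁ := by simpa using h3.h1
  have g2 : ρ g e₂ = e₂ := by simpa using h3.h2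
  have g3 : ρ g e₃ = e₃ := by simpa using h3.h3
  have g4 : ρ g v = v := by simpa using h3.h4
  have hg1 : g = 1 := by
    apply h.eq_one_of
    · intro w hw
      obtain ⟨a₁, a₂, a₃, a₄, rfl⟩ := hF w hw
      simp only [map_add, map_smul, g1, g2, g3, g4]
    · intro f hf
      exact hf g hgR
  have h6 : y ^ 6 = 1 := by
    rw [← hg1, hg]
    simp only [pow_succ, pow_zero, one_mul, mul_assoc]
  have hdvd : orderOf y ∣ 3 * 2 := orderOf_dvd_of_pow_eq_one h6
  have hcop : (orderOf y).Coprime 3 := by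
    rw [Nat.coprime_comm, Nat.Prime.coprime_iff_not_dvd (by norm_num)]
    exact h.cop y hy
  have hd2 : orderOf y ∣ 2 := hcop.dvd_of_dvd_mul_left hdvd
  have := orderOf_dvd_iff_pow_eq_one.mp hd2
  rw [pow_two] at this
  exact this

/-- **The centralizer of `b` in `R` acts by scalars on `W`.** -/
theorem central_scalar (h : Sett ρ R b) (hD : FG ρ b t₁ t₂ t₃ e₁ e₂ e₃) (ht1 : t₁ ∈ R)
    (hW : Nat.card (W ρ R) ≤ 81) {y : G} (hy : y ∈ R) (hyb : y * b = b * y) :
    (∀ w ∈ W ρ R, ρ y w = w) ∨ (∀ w ∈ W ρ R, ρ y w = -w) :=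
  inv_scalar h hD ht1 hW hy hyb (y_sq h hD ht1 hW hy hyb)

end Cfsg.Agent.Lib.CubG
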