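import Mathlib
import Cfsg.Agent.Lib.CubG
import Cfsg.Agent.Lib.BrolineGT

/-!
# Structure modulo the scalar involution
-/

set_option autoImplicit false
set_option linter.unusedSectionVars false
set_option linter.unusedVariables false

namespace Cfsg.Agent.Lib.CubH

open Cfsg.Agent.Lib.CubA Cfsg.Agent.Lib.CubB Cfsg.Agent.Lib.CubC Cfsg.Agent.Lib.CubC.Sett
  Cfsg.Agent.Lib.CubD Cfsg.Agent.Lib.CubE Cfsg.Agent.Lib.CubF Cfsg.Agent.Lib.CubG

variable {G : Type*} [Group G] {E : Type*} [AddCommGroup E] [Module (ZMod 3) E]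
variable {ρ : Representation (ZMod 3) G E} {R T : Subgroup G}
variable {b t₁ t₂ t₃ : G} {e₁ e₂ e₃ : E}

/-- A general bound from a linear map. -/
theorem card_le_mul [Finite E] {W C Rg : Submodule (ZMod 3) E} (θ : E →ₗ[ZMod 3] E)
    (hC : ∀ w ∈ W, θ w = 0 → w ∈ C) (hRg : ∀ w ∈ W, θ w ∈ Rg) :
    Nat.card W ≤ Nat.card C * Nat.card Rg := by
  classical
  have hs : ∀ y : Rg, ∃ s : E, s ∈ W ∧ ((∃ w ∈ W, θ w = y) → θ s = y) := by
    intro y
    by_cases hy : ∃ w ∈ W, θ w = y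
    · obtain ⟨w, hw, hwy⟩ := hy
      exact ⟨w, hw, fun _ => hwy⟩
    · exact ⟨0, W.zero_mem, fun h => absurd h hy⟩
  choose s hsW hsθ using hs
  let ψ : W → C × Rg := fun w =>
    (⟨(w : E) - s ⟨θ w, hRg w w.2⟩, by
      apply hC _ (W.sub_mem w.2 (hsW _))
      rw [map_sub, hsθ _ ⟨w, w.2, rfl⟩, sub_self]⟩, ⟨θ w, hRg w w.2⟩)
  have hinj : Function.Injective ψ := by
    intro x y hxy
    have h1 := congrArg Prod.snd hxy
    have h2 := congrArg Prod.fst hxy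
    have h3 : (⟨θ x, hRg x x.2⟩ : Rg) = ⟨θ y, hRg y y.2⟩ := h1
    have h4 : (x : E) - s ⟨θ x, hRg x x.2⟩ = (y : E) - s ⟨θ y, hRg y y.2⟩ :=
      congrArg Subtype.val h2
    rw [h3] at h4
    apply Subtype.ext
    exact sub_left_injective h4
  have := Nat.card_le_card_of_injective ψ hinj
  rwa [Nat.card_prod] at this

/-- Involutions from a four-group. -/
theorem exists_FG' [Finite E] (h : Sett ρ R b) {u₁ u₂ u₃ : G} (hsq : u₁ * u₁ = 1) (h12 : u₁ * u₂ = u₃)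
    (bu1 : b * u₁ * b⁻¹ = u₂) (bu2 : b * u₂ * b⁻¹ = u₃) (hne : u₁ ≠ 1) :
    ∃ e₁' e₂' e₃', FG ρ b u₁ u₂ u₃ e₁' e₂' e₃' := by
  have bu3 : b * u₃ * b⁻¹ = u₁ := by
    rw [← bu2, ← bu1]
    have h1 : b⁻¹ = b * b := h.binv
    calc b * (b * (b * u₁ * b⁻¹) * b⁻¹) * b⁻¹ = (b * b * b) * u₁ * (b * b * b)⁻¹ := by group
      _ = u₁ := by rw [h.b3]; group
  have h23 : u₂ * u₃ = u₁ := by
    calc u₂ * u₃ = (b * u₁ * b⁻¹) * (b * u₂ * b⁻¹) := by rw [bu1, bu2]
      _ = b * (u₁ * u₂) * b⁻¹ := by group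
      _ = u₁ := by rw [h12, bu3]
  have h31 : u₃ * u₁ = u₂ := by
    calc u₃ * u₁ = (b * u₂ * b⁻¹) * (b * u₃ * b⁻¹) := by rw [bu2, bu3]
      _ = b * (u₂ * u₃) * b⁻¹ := by group
      _ = u₂ := by rw [h23, bu1]
  refine exists_FG h.b3 hsq h12 h23 h31 bu1 bu2 bu3 ?_ h.rank
  intro h0
  apply hne
  apply h.faith
  rw [h0, map_one]

/-- The `R`-invariance principle: an `R`-invariant set of `b`-fixed elements is centralized. -/
theorem comm_R_of_invariant (h : Sett ρ R b) {A : Set G}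
    (hAn : ∀ r ∈ R, ∀ a ∈ A, r * a * r⁻¹ ∈ A) (hAb : ∀ a ∈ A, b * a * b⁻¹ = a) {a : G} (ha : a ∈ A) :
    ∀ r ∈ R, a * r = r * a := by
  have hL : R ≤ Subgroup.centralizer {a} := by
    refine h.gen _ (fun r hr => ?_)
    rw [Subgroup.mem_centralizer_singleton_iff]
    have h1 : b⁻¹ * a = a * b⁻¹ := by
      have := hAb a ha
      rw [mul_inv_eq_iff_eq_mul] at this
      rw [inv_mul_eq_iff_eq_mul, ← mul_assoc, this]; group
    have ha' : r⁻¹ * a * r ∈ A := by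
      have := hAn r⁻¹ (R.inv_mem hr) a ha
      simpa using this
    have h2 : b * (r⁻¹ * a * r) = (r⁻¹ * a * r) * b := by
      have := hAb _ ha'
      rw [mul_inv_eq_iff_eq_mul] at this
      exact this
    calc r * b * r⁻¹ * b⁻¹ * a = r * b * r⁻¹ * (b⁻¹ * a) := by group
      _ = r * b * r⁻¹ * (a * b⁻¹) := by rw [h1]
      _ = r * (b * (r⁻¹ * a * r)) * r⁻¹ * b⁻¹ := by group
      _ = r * ((r⁻¹ * a * r) * b) * r⁻¹ * b⁻¹ := by rw [h2]
      _ = a * (r * b * r⁻¹ * b⁻¹) := by group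
  intro r hr
  have := hL hr
  rw [Subgroup.mem_centralizer_singleton_iff] at this
  exact this.symm

variable [Finite G] [Finite E]

/-- Elements central in `R⟨b⟩` are scalars on `W`. -/
theorem central_cases (h : Sett ρ R b) (hD : FG ρ b t₁ t₂ t₃ e₁ e₂ e₃) (ht1 : t₁ ∈ R) {a : G}
    (ha : a ∈ R) (har : ∀ r ∈ R, a * r = r * a) (hab : a * b = b * a) :
    a = 1 ∨ ∀ w ∈ W ρ R, ρ a w = -w := by
  have ht2 : t₂ ∈ R := by rw [← hD.bt1]; exact h.nb _ ht1
  have he1 : e₁ ∈ W ρ R := (e_mem_W h hD ht1).1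
  have h1 : ρ t₁ (ρ a e₁) = ρ a e₁ := by
    rw [← act_mul, ← har t₁ ht1, act_mul, hD.t1e1]
  have h2 : ρ t₂ (ρ a e₁) = -ρ a e₁ := by
    rw [← act_mul, ← har t₂ ht2, act_mul, hD.t2e1, map_neg]
  obtain ⟨c, hc⟩ := hD.eig₁ h1 h2
  have hne : ρ a e₁ ≠ 0 := fun h0 => hD.e1ne (act_inj ρ a (h0.trans (map_zero _).symm))
  rcases smul_fr hne hc with h3 | h3
  · left
    have h4 := scalar_of_central h hD ht1 (s := 1) har hab he1 hD.e1ne (by rw [h3, one_smul])
      (fun w hw => W_act ha hw)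
    apply h.eq_one_of
    · intro w hw
      rw [h4 w hw, one_smul]
    · intro f hf
      exact hf a ha
  · right
    have h4 := scalar_of_central h hD ht1 (s := -1) har hab he1 hD.e1ne
      (by rw [h3, neg_smul, one_smul]) (fun w hw => W_act ha hw)
    intro w hw
    rw [h4 w hw, neg_smul, one_smul]

/-- The scalar involution. -/
structure IsZ (ρ : Representation (ZMod 3) G E) (R : Subgroup G) (b z : G) : Prop where
  mem : z ∈ R
  sq : z * z = 1
  cr : ∀ r ∈ R, z * r = r * z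
  cb : z * b = b * z
  act : ∀ w ∈ W ρ R, ρ z w = -w

/-- Properties of a normal `2`-subgroup. -/
structure TT (R T : Subgroup G) (b : G) : Prop where
  le : T ≤ R
  norm : ∀ r ∈ R, ∀ x ∈ T, r * x * r⁻¹ ∈ T
  nb : ∀ x ∈ T, b * x * b⁻¹ ∈ T
  p2 : IsPGroup 2 T
  cent : ∀ x ∈ R, (∀ y ∈ T, x * y = y * x) → x ∈ T

theorem TT.norm_T (hT : TT R T b) : ∀ x ∈ T, ∀ n ∈ T, x * n * x⁻¹ ∈ T :=
  fun x hx n hn => T.mul_mem (T.mul_mem hx hn) (T.inv_mem hx)

theorem TT.nb' (hT : TT R T b) (h : Sett ρ R b) {x : G} (hx : x ∈ T) : b⁻¹ * x * b ∈ T := by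
  have h1 : b⁻¹ * x * b = b * (b * x * b⁻¹) * b⁻¹ := by
    have : b⁻¹ = b * b := h.binv
    calc b⁻¹ * x * b = b⁻¹ * x * (b⁻¹)⁻¹ := by group
      _ = (b * b) * x * (b * b)⁻¹ := by rw [this]
      _ = _ := by group
  rw [h1]
  exact hT.nb _ (hT.nb _ hx)

/-- The centre of `T` has an involution. -/
theorem central_invol {T : Subgroup G} (hp : IsPGroup 2 T) (hne : T ≠ ⊥) :
    ∃ a ∈ T, (∀ x ∈ T, a * x = x * a) ∧ a * a = 1 ∧ a ≠ 1 := by
  have : Fact (Nat.Prime 2) := ⟨Nat.prime_two⟩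
  have hnt : Nontrivial T := (Subgroup.nontrivial_iff_ne_bot T).mpr hne
  have hZ : Nontrivial (Subgroup.center T) := hp.center_nontrivial
  obtain ⟨x, hx⟩ := exists_ne (1 : Subgroup.center T)
  have hpz : IsPGroup 2 (Subgroup.center T) := hp.to_subgroup _
  have h2 : 2 ∣ orderOf x := hpz.dvd_orderOf hx
  have hord : orderOf (x ^ (orderOf x / 2)) = 2 :=
    orderOf_pow_orderOf_div (orderOf_pos x).ne' h2
  set y := x ^ (orderOf x / 2) with hy
  have hy2 : y * y = 1 := by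
    have := pow_orderOf_eq_one y
    rw [hord, pow_two] at this
    exact this
  have hy1 : y ≠ 1 := by
    intro h0
    rw [h0, orderOf_one] at hord
    omega
  refine ⟨((y : T) : G), ((y : T)).2, ?_, ?_, ?_⟩
  · intro g hg
    have := (Subgroup.mem_center_iff.mp y.2) ⟨g, hg⟩
    have h3 := congrArg Subtype.val this
    exact h3.symm
  · have := congrArg (fun u : Subgroup.center T => ((u : T) : G)) hy2
    simpa using this
  · intro h0
    apply hy1
    apply Subtype.ext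
    apply Subtype.ext
    exact h0

omit [Finite E] in
/-- The centre of a normal subgroup is invariant. -/
theorem zT_conj {T : Subgroup G} {g a : G} (hg : ∀ x ∈ T, g * x * g⁻¹ ∈ T)
    (hg' : ∀ x ∈ T, g⁻¹ * x * g ∈ T) (ha : a ∈ T) (hac : ∀ x ∈ T, a * x = x * a) :
    g * a * g⁻¹ ∈ T ∧ ∀ x ∈ T, g * a * g⁻¹ * x = x * (g * a * g⁻¹) := by
  refine ⟨hg a ha, fun x hx => ?_⟩
  have h1 := hac _ (hg' x hx)
  calc g * a * g⁻¹ * x = g * (a * (g⁻¹ * x * g)) * g⁻¹ := by group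
    _ = g * ((g⁻¹ * x * g) * a) * g⁻¹ := by rw [h1]
    _ = _ := by group

/-- **Case I**: a four-group in the centre of `T`. -/
theorem card_W_of_central_FG (h : Sett ρ R b) (hT : TT R T b) {u₁ u₂ u₃ : G} {e₁' e₂' e₃' : E}
    (hD' : FG ρ b u₁ u₂ u₃ e₁' e₂' e₃') (hu1 : u₁ ∈ T) (huc : ∀ x ∈ T, u₁ * x = x * u₁) :
    Nat.card (W ρ R) ≤ 81 := by
  have hb : ∀ a, (a ∈ T ∧ ∀ x ∈ T, a * x = x * a) → (b * a * b⁻¹ ∈ T ∧ ∀ x ∈ T,
      b * a * b⁻¹ * x = x * (b * a * b⁻¹)) := by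
    intro a ha
    exact zT_conj hT.nb (fun x hx => hT.nb' h hx) ha.1 ha.2
  have h1 : u₁ ∈ T ∧ ∀ x ∈ T, u₁ * x = x * u₁ := ⟨hu1, huc⟩
  have h2 : u₂ ∈ T ∧ ∀ x ∈ T, u₂ * x = x * u₂ := by rw [← hD'.bt1]; exact hb _ h1
  have h3 : u₃ ∈ T ∧ ∀ x ∈ T, u₃ * x = x * u₃ := by rw [← hD'.bt2]; exact hb _ h2
  have hcl : ∀ x ∈ Cl R u₁ u₂ u₃, x ∈ T ∧ ∀ y ∈ T, x * y = y * x := by
    rintro x ⟨r, hr, hx⟩
    have hr' : ∀ y ∈ T, r⁻¹ * y * r ∈ T := by
      intro y hy
      have := hT.norm _ (R.inv_mem hr) y hy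
      simpa using this
    rcases hx with rfl | rfl | rfl
    · exact zT_conj (hT.norm r hr) hr' h1.1 h1.2
    · exact zT_conj (hT.norm r hr) hr' h2.1 h2.2
    · exact zT_conj (hT.norm r hr) hr' h3.1 h3.2
  refine card_W_le h hD' (hT.le hu1) ?_
  intro x hx y hy
  exact (hcl x hx).2 y (hcl y hy).1

/-- A four-group from a noninvariant commuting involution. -/
theorem fg_of_invol (h : Sett ρ R b) {a : G} (ha2 : a * a = 1)
    (hc : a * (b * a * b⁻¹) = (b * a * b⁻¹) * a) (hne : b * a * b⁻¹ ≠ a) :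
    ∃ e₁' e₂' e₃' : E, FG ρ b (a * (b * a * b⁻¹)) ((b * a * b⁻¹) * (b * (b * a * b⁻¹) * b⁻¹))
      ((b * (b * a * b⁻¹) * b⁻¹) * a) e₁' e₂' e₃' := by
  set a₂ := b * a * b⁻¹ with ha₂
  set a₃ := b * a₂ * b⁻¹ with ha₃
  have ha₄ : b * a₃ * b⁻¹ = a := by
    rw [ha₃, ha₂]
    calc b * (b * (b * a * b⁻¹) * b⁻¹) * b⁻¹ = (b * b * b) * a * (b * b * b)⁻¹ := by group
      _ = a := by rw [h.b3]; group
  have s2 : a₂ * a₂ = 1 := by
    rw [ha₂]
    calc b * a * b⁻¹ * (b * a * b⁻¹) = b * (a * a) * b⁻¹ := by group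
      _ = 1 := by rw [ha2]; group
  have c23 : a₂ * a₃ = a₃ * a₂ := by
    have : b * (a * a₂) * b⁻¹ = b * (a₂ * a) * b⁻¹ := by rw [hc]
    calc a₂ * a₃ = b * (a * a₂) * b⁻¹ := by rw [ha₃, ha₂]; group
      _ = b * (a₂ * a) * b⁻¹ := this
      _ = a₃ * a₂ := by rw [ha₃, ha₂]; group
  have c31 : a₃ * a = a * a₃ := by
    have : b * (a₂ * a₃) * b⁻¹ = b * (a₃ * a₂) * b⁻¹ := by rw [c23]
    calc a₃ * a = (b * a₂ * b⁻¹) * (b * a₃ * b⁻¹) := by rw [ha₄]
      _ = b * (a₂ * a₃) * b⁻¹ := by group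
      _ = b * (a₃ * a₂) * b⁻¹ := this
      _ = (b * a₃ * b⁻¹) * (b * a₂ * b⁻¹) := by group
      _ = a * a₃ := by rw [ha₄]
  refine exists_FG' h ?_ ?_ ?_ ?_ ?_
  · calc a * a₂ * (a * a₂) = a * (a₂ * a) * a₂ := by group
      _ = a * (a * a₂) * a₂ := by rw [hc]
      _ = (a * a) * (a₂ * a₂) := by group
      _ = 1 := by rw [ha2, s2, one_mul]
  · calc a * a₂ * (a₂ * a₃) = a * (a₂ * a₂) * a₃ := by group
      _ = a * a₃ := by rw [s2, mul_one]
      _ = a₃ * a := c31.symm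
  · calc b * (a * a₂) * b⁻¹ = (b * a * b⁻¹) * (b * a₂ * b⁻¹) := by group
      _ = a₂ * a₃ := rfl
  · calc b * (a₂ * a₃) * b⁻¹ = (b * a₂ * b⁻¹) * (b * a₃ * b⁻¹) := by group
      _ = a₃ * a := by rw [ha₄]
  · intro h0
    apply hne
    have h1 : a₂ = a⁻¹ := eq_inv_of_mul_eq_one_right h0
    have h2 : a⁻¹ = a := inv_eq_of_mul_eq_one_right ha2
    rw [h1, h2]


/-- **Case II**: the central involution. -/
theorem exists_isZ (h : Sett ρ R b) (hD : FG ρ b t₁ t₂ t₃ e₁ e₂ e₃) (ht1 : t₁ ∈ R) (hT : TT R T b)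
    (hne : T ≠ ⊥) (hno : ∀ a ∈ T, (∀ x ∈ T, a * x = x * a) → a * a = 1 → b * a * b⁻¹ = a) :
    ∃ z ∈ T, IsZ ρ R b z ∧ ∀ a ∈ T, (∀ x ∈ T, a * x = x * a) → a * a = 1 → a = 1 ∨ a = z := by
  let A : Set G := {a | a ∈ T ∧ (∀ x ∈ T, a * x = x * a) ∧ a * a = 1}
  have hAn : ∀ r ∈ R, ∀ a ∈ A, r * a * r⁻¹ ∈ A := by
    rintro r hr a ⟨ha, hc, hs⟩
    have hr' : ∀ y ∈ T, r⁻¹ * y * r ∈ T := by
      intro y hy
      have := hT.norm _ (R.inv_mem hr) y hy
      simpa using this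
    obtain ⟨h1, h2⟩ := zT_conj (hT.norm r hr) hr' ha hc
    refine ⟨h1, h2, ?_⟩
    calc r * a * r⁻¹ * (r * a * r⁻¹) = r * (a * a) * r⁻¹ := by group
      _ = 1 := by rw [hs]; group
  have hAb : ∀ a ∈ A, b * a * b⁻¹ = a := fun a ha => hno a ha.1 ha.2.1 ha.2.2
  have hcb : ∀ a ∈ A, a * b = b * a := by
    intro a ha
    have := hAb a ha
    rw [mul_inv_eq_iff_eq_mul] at this
    exact this.symm
  have key : ∀ a ∈ A, a = 1 ∨ ∀ w ∈ W ρ R, ρ a w = -w := fun a ha =>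
    central_cases h hD ht1 (hT.le ha.1) (comm_R_of_invariant h hAn hAb ha) (hcb a ha)
  obtain ⟨z, hz, hzc, hz2, hz1⟩ := central_invol hT.p2 hne
  have hzA : z ∈ A := ⟨hz, hzc, hz2⟩
  have hact := (key z hzA).resolve_left hz1
  refine ⟨z, hz, ⟨hT.le hz, hz2, comm_R_of_invariant h hAn hAb hzA, hcb z hzA, hact⟩, ?_⟩
  intro a ha hac ha2
  rcases key a ⟨ha, hac, ha2⟩ with h1 | h1
  · left; exact h1
  · right
    exact h.eq_of_W (hT.le ha) (hT.le hz) (fun w hw => by rw [h1 w hw, hact w hw])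

omit [Finite G] [Finite E] in
/-- The subgroup `{1, z}`. -/
def Zz {P : Type*} [Group P] (z : P) (hzz : z * z = 1) : Subgroup P where
  carrier := {u | u = 1 ∨ u = z}
  mul_mem' := by
    rintro a c (rfl | rfl) (rfl | rfl)
    · left; simp
    · right; simp
    · right; simp
    · left; exact hzz
  one_mem' := Or.inl rfl
  inv_mem' := by
    rintro a (rfl | rfl)
    · left; simp
    · right; exact inv_eq_of_mul_eq_one_right hzz

omit [Finite G] [Finite E] in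
theorem mod_central_aux {P : Type*} [Group P] [Finite P] (hP : IsPGroup 2 P) (N : Subgroup P)
    (hN : N.Normal) {z : P} (hz : z ∈ Subgroup.center P) (hzz : z * z = 1)
    (hex : ∃ x ∈ N, x ≠ 1 ∧ x ≠ z) :
    ∃ y ∈ N, y ≠ 1 ∧ y ≠ z ∧ (y * y = 1 ∨ y * y = z) ∧
      ∀ x, x * y * x⁻¹ * y⁻¹ = 1 ∨ x * y * x⁻¹ * y⁻¹ = z := by
  have : Fact (Nat.Prime 2) := ⟨Nat.prime_two⟩
  let Z : Subgroup P := Zz z hzz
  have hZn : Z.Normal := by
    constructor
    rintro u (rfl | rfl) g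
    · left; simp
    · right
      have := Subgroup.mem_center_iff.mp hz g
      rw [this]; group
  have memZ : ∀ u, u ∈ Z ↔ u = 1 ∨ u = z := fun u => Iff.rfl
  let M : Subgroup (P ⧸ Z) := N.map (QuotientGroup.mk' Z)
  have hMn : M.Normal := hN.map _ (QuotientGroup.mk'_surjective Z)
  have hQ : IsPGroup 2 (P ⧸ Z) := hP.to_quotient Z
  have hnil : Group.IsNilpotent (P ⧸ Z) := hQ.isNilpotent
  have hMne : M ≠ ⊥ := by
    obtain ⟨x, hxN, hx1, hxz⟩ := hex
    intro h0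
    have h1 : QuotientGroup.mk' Z x ∈ M := Subgroup.mem_map_of_mem _ hxN
    rw [h0, Subgroup.mem_bot] at h1
    have h2 : x ∈ Z := (QuotientGroup.eq_one_iff x).mp h1
    rcases h2 with h2 | h2
    · exact hx1 h2
    · exact hxz h2
  have hcap := Cfsg.Agent.Lib.BrolineGT.inf_center_ne_bot M hMne
  obtain ⟨q, hq, hq1⟩ := Cfsg.Agent.Lib.BrolineGT.exists_mem_ne_one hcap
  have h2 : 2 ∣ orderOf q := hQ.dvd_orderOf hq1
  have hord : orderOf (q ^ (orderOf q / 2)) = 2 := orderOf_pow_orderOf_div (orderOf_pos q).ne' h2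
  set q₀ := q ^ (orderOf q / 2) with hq₀
  have hq0M : q₀ ∈ M := M.pow_mem hq.1 _
  have hq0Z : q₀ ∈ Subgroup.center (P ⧸ Z) := Subgroup.pow_mem _ hq.2 _
  have hq01 : q₀ ≠ 1 := by
    intro h0
    rw [h0, orderOf_one] at hord
    omega
  have hq02 : q₀ * q₀ = 1 := by
    have := pow_orderOf_eq_one q₀
    rw [hord, pow_two] at this
    exact this
  obtain ⟨y, hy, hyq⟩ := hq0M
  have hyq' : (y : P ⧸ Z) = q₀ := hyq
  refine ⟨y, hy, ?_, ?_, ?_, ?_⟩
  · rintro rfl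
    apply hq01
    rw [← hyq']
    rfl
  · rintro rfl
    apply hq01
    rw [← hyq']
    exact (QuotientGroup.eq_one_iff _).mpr (Or.inr rfl)
  · have h3 : ((y * y : P) : P ⧸ Z) = 1 := by
      rw [QuotientGroup.mk_mul, hyq', hq02]
    exact (QuotientGroup.eq_one_iff _).mp h3
  · intro x
    have h3 : ((x * y * x⁻¹ * y⁻¹ : P) : P ⧸ Z) = 1 := by
      simp only [QuotientGroup.mk_mul, QuotientGroup.mk_inv, hyq']
      have := Subgroup.mem_center_iff.mp hq0Z (x : P ⧸ Z)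
      rw [this]
      group
    exact (QuotientGroup.eq_one_iff _).mp h3

omit [Finite E] in
/-- Elements central modulo `z`. -/
theorem exists_mod_central {T N : Subgroup G} (hT2 : IsPGroup 2 T) (hNT : N ≤ T)
    (hNn : ∀ x ∈ T, ∀ n ∈ N, x * n * x⁻¹ ∈ N) {z : G} (hzT : z ∈ T)
    (hzc : ∀ x ∈ T, z * x = x * z) (hzz : z * z = 1) (hex : ∃ x ∈ N, x ≠ 1 ∧ x ≠ z) :
    ∃ y ∈ N, y ≠ 1 ∧ y ≠ z ∧ (y * y = 1 ∨ y * y = z) ∧
      ∀ x ∈ T, x * y * x⁻¹ * y⁻¹ = 1 ∨ x * y * x⁻¹ * y⁻¹ = z := by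
  have hn' : (N.subgroupOf T).Normal := by
    constructor
    intro n hn g
    rw [Subgroup.mem_subgroupOf] at hn ⊢
    exact hNn g g.2 n hn
  have hzc' : (⟨z, hzT⟩ : T) ∈ Subgroup.center T := by
    rw [Subgroup.mem_center_iff]
    intro g
    apply Subtype.ext
    exact (hzc g g.2).symm
  have hzz' : (⟨z, hzT⟩ : T) * ⟨z, hzT⟩ = 1 := Subtype.ext hzz
  have hex' : ∃ x ∈ N.subgroupOf T, x ≠ 1 ∧ x ≠ (⟨z, hzT⟩ : T) := by
    obtain ⟨x, hx, hx1, hxz⟩ := hex
    refine ⟨⟨x, hNT hx⟩, ?_, ?_, ?_⟩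
    · rw [Subgroup.mem_subgroupOf]; exact hx
    · intro h0; exact hx1 (congrArg Subtype.val h0)
    · intro h0; exact hxz (congrArg Subtype.val h0)
  obtain ⟨y, hy, hy1, hyz, hys, hyc⟩ := mod_central_aux hT2 _ hn' hzc' hzz' hex'
  rw [Subgroup.mem_subgroupOf] at hy
  refine ⟨y, hy, ?_, ?_, ?_, ?_⟩
  · intro h0; exact hy1 (Subtype.ext h0)
  · intro h0; exact hyz (Subtype.ext h0)
  · rcases hys with a | a
    · left; exact congrArg Subtype.val a
    · right; exact congrArg Subtype.val a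
  · intro x hx
    rcases hyc ⟨x, hx⟩ with a | a
    · left; exact congrArg Subtype.val a
    · right; exact congrArg Subtype.val a

/-- Elements central modulo `z`, of square in `{1, z}`. -/
structure AT (T : Subgroup G) (z y : G) : Prop where
  mem : y ∈ T
  sq : y * y = 1 ∨ y * y = z
  cm : ∀ x ∈ T, x * y * x⁻¹ * y⁻¹ = 1 ∨ x * y * x⁻¹ * y⁻¹ = z

omit [Finite G] [Finite E] in
theorem zm_mul {z a c : G} (hzz : z * z = 1) (ha : a = 1 ∨ a = z) (hc : c = 1 ∨ c = z) :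
    a * c = 1 ∨ a * c = z := by
  rcases ha with rfl | rfl <;> rcases hc with rfl | rfl
  · left; simp
  · right; simp
  · right; simp
  · left; exact hzz

omit [Finite E] in
theorem AT.conj {z y g : G} (hy : AT T z y) (hg : ∀ x ∈ T, g * x * g⁻¹ ∈ T)
    (hg' : ∀ x ∈ T, g⁻¹ * x * g ∈ T) (hgz : g * z * g⁻¹ = z) : AT T z (g * y * g⁻¹) := by
  refine ⟨hg _ hy.mem, ?_, ?_⟩
  · have h1 : g * y * g⁻¹ * (g * y * g⁻¹) = g * (y * y) * g⁻¹ := by group
    rw [h1]
    rcases hy.sq with a | a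
    · left; rw [a]; group
    · right; rw [a, hgz]
  · intro x hx
    have h1 : x * (g * y * g⁻¹) * x⁻¹ * (g * y * g⁻¹)⁻¹ =
        g * ((g⁻¹ * x * g) * y * (g⁻¹ * x * g)⁻¹ * y⁻¹) * g⁻¹ := by group
    rw [h1]
    rcases hy.cm _ (hg' x hx) with a | a
    · left; rw [a]; group
    · right; rw [a, hgz]

omit [Finite E] in
theorem AT.mul {z y y' : G} (hzT : ∀ x ∈ T, z * x = x * z) (hzz : z * z = 1) (hy : AT T z y)
    (hy' : AT T z y') : AT T z (y * y') := by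
  have hcen : ∀ {a : G}, (a = 1 ∨ a = z) → ∀ x ∈ T, a * x = x * a := by
    rintro a (rfl | rfl) x hx
    · simp
    · exact hzT x hx
  refine ⟨T.mul_mem hy.mem hy'.mem, ?_, ?_⟩
  · have hε := hy.cm y' hy'.mem
    set ε := y' * y * y'⁻¹ * y⁻¹ with hεd
    have h1 : y' * y = ε * (y * y') := by rw [hεd]; group
    have h2 : y * y' * (y * y') = ε * (y * y) * (y' * y') := by
      calc y * y' * (y * y') = y * (y' * y) * y' := by group
        _ = y * (ε * (y * y')) * y' := by rw [h1]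
        _ = (y * ε) * y * y' * y' := by group
        _ = (ε * y) * y * y' * y' := by rw [hcen hε y hy.mem]
        _ = _ := by group
    rw [h2]
    exact zm_mul hzz (zm_mul hzz hε hy.sq) hy'.sq
  · intro x hx
    have h1 := hy.cm x hx
    have h2 := hy'.cm x hx
    set ε₁ := x * y * x⁻¹ * y⁻¹ with h1d
    set ε₂ := x * y' * x⁻¹ * y'⁻¹ with h2d
    have h3 : x * (y * y') * x⁻¹ * (y * y')⁻¹ = ε₁ * (y * ε₂ * y⁻¹) := by
      rw [h1d, h2d]; group
    have h4 : y * ε₂ * y⁻¹ = ε₂ := by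
      rw [← hcen h2 y hy.mem]; group
    rw [h3, h4]
    exact zm_mul hzz h1 h2

theorem IsZ.ne_one {z : G} (hz : IsZ ρ R b z) (h : Sett ρ R b) (hD : FG ρ b t₁ t₂ t₃ e₁ e₂ e₃)
    (ht1 : t₁ ∈ R) : z ≠ 1 := by
  rintro rfl
  have h1 := hz.act e₁ (e_mem_W h hD ht1).1
  rw [act_one] at h1
  exact hD.e1ne (eq_zero_of_eq_neg h1)

/-- Some element central modulo `z` is moved by `b`. -/
theorem exists_moved (h : Sett ρ R b) (hD : FG ρ b t₁ t₂ t₃ e₁ e₂ e₃) (ht1 : t₁ ∈ R) (hT : TT R T b)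
    {z : G} (hz : IsZ ρ R b z) (hzT : z ∈ T) (hex : ∃ x ∈ T, x ≠ 1 ∧ x ≠ z) :
    ∃ y, AT T z y ∧ y ≠ 1 ∧ y ≠ z ∧ b * y * b⁻¹ ≠ y ∧ b * y * b⁻¹ ≠ y * z := by
  by_contra hno
  push Not at hno
  have hz1 := hz.ne_one h hD ht1
  have hzc : ∀ x ∈ T, z * x = x * z := fun x hx => hz.cr x (hT.le hx)
  have hbz : b * z * b⁻¹ = z := by
    rw [mul_inv_eq_iff_eq_mul]; exact hz.cb.symm
  let A : Set G := {y | AT T z y}
  have hAb : ∀ y ∈ A, b * y * b⁻¹ = y := by
    intro y hy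
    by_cases h1 : y = 1
    · rw [h1]; group
    by_cases h2 : y = z
    · rw [h2, hbz]
    by_contra h3
    have h4 := hno y hy h1 h2 h3
    have h5 : b * (b * (b * y * b⁻¹) * b⁻¹) * b⁻¹ = y := by
      calc b * (b * (b * y * b⁻¹) * b⁻¹) * b⁻¹ = (b * b * b) * y * (b * b * b)⁻¹ := by group
        _ = y := by rw [h.b3]; group
    rw [h4] at h5
    have h6 : b * (y * z) * b⁻¹ = y := by
      calc b * (y * z) * b⁻¹ = (b * y * b⁻¹) * (b * z * b⁻¹) := by group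
        _ = y * z * z := by rw [h4, hbz]
        _ = y := by rw [mul_assoc, hz.sq, mul_one]
    rw [h6, h4] at h5
    apply hz1
    exact mul_left_cancel (h5.trans (mul_one y).symm)
  have hAn : ∀ r ∈ R, ∀ a ∈ A, r * a * r⁻¹ ∈ A := by
    intro r hr a ha
    have hr' : ∀ y ∈ T, r⁻¹ * y * r ∈ T := by
      intro y hy
      have := hT.norm _ (R.inv_mem hr) y hy
      simpa using this
    refine AT.conj ha (hT.norm r hr) hr' ?_
    rw [mul_inv_eq_iff_eq_mul]; exact (hz.cr r hr).symm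
  obtain ⟨y, hy, hy1, hyz, hys, hyc⟩ := exists_mod_central hT.p2 le_rfl hT.norm_T hzT hzc hz.sq hex
  have hyA : y ∈ A := ⟨hy, hys, hyc⟩
  have hcb : y * b = b * y := by
    have := hAb y hyA
    rw [mul_inv_eq_iff_eq_mul] at this
    exact this.symm
  rcases central_cases h hD ht1 (hT.le hy) (comm_R_of_invariant h hAn hAb hyA) hcb with h1 | h1
  · exact hy1 h1
  · apply hyz
    exact h.eq_of_W (hT.le hy) hz.mem (fun w hw => by rw [h1 w hw, hz.act w hw])


/-- An element central modulo `z` with product of its images in `{1, z}`. -/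
theorem exists_w (h : Sett ρ R b) (hD : FG ρ b t₁ t₂ t₃ e₁ e₂ e₃) (ht1 : t₁ ∈ R) (hT : TT R T b)
    {z : G} (hz : IsZ ρ R b z) (hzT : z ∈ T) (hex : ∃ x ∈ T, x ≠ 1 ∧ x ≠ z) :
    ∃ w n, AT T z w ∧ w ≠ 1 ∧ w ≠ z ∧ (n = 1 ∨ n = z) ∧
      w * (b * w * b⁻¹) * (b * (b * w * b⁻¹) * b⁻¹) = n := by
  obtain ⟨y, hy, hy1, hyz, hm1, hm2⟩ := exists_moved h hD ht1 hT hz hzT hex
  have hbz : b * z * b⁻¹ = z := by
    rw [mul_inv_eq_iff_eq_mul]; exact hz.cb.symm
  have hzc : ∀ x ∈ T, z * x = x * z := fun x hx => hz.cr x (hT.le hx)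
  set y₂ := b * y * b⁻¹ with hy₂
  set y₃ := b * y₂ * b⁻¹ with hy₃
  have hy₄ : b * y₃ * b⁻¹ = y := by
    rw [hy₃, hy₂]
    calc b * (b * (b * y * b⁻¹) * b⁻¹) * b⁻¹ = (b * b * b) * y * (b * b * b)⁻¹ := by group
      _ = y := by rw [h.b3]; group
  have hb' : ∀ x ∈ T, b⁻¹ * x * b ∈ T := fun x hx => hT.nb' h hx
  have Ay₂ : AT T z y₂ := AT.conj hy hT.nb hb' hbz
  have Ay₃ : AT T z y₃ := AT.conj Ay₂ hT.nb hb' hbz
  have hw : AT T z (y * y₂) := AT.mul hzc hz.sq hy Ay₂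
  set c := y * y with hc
  have hcz : c = 1 ∨ c = z := hy.sq
  have hcb : b * c * b⁻¹ = c := by
    rcases hcz with a | a
    · rw [a]; group
    · rw [a, hbz]
  have hcc : c * c = 1 := by
    rcases hcz with a | a
    · rw [a, one_mul]
    · rw [a, hz.sq]
  have s2 : y₂ * y₂ = c := by
    rw [hy₂]
    calc b * y * b⁻¹ * (b * y * b⁻¹) = b * c * b⁻¹ := by rw [hc]; group
      _ = c := hcb
  have s3 : y₃ * y₃ = c := by
    rw [hy₃]
    calc b * y₂ * b⁻¹ * (b * y₂ * b⁻¹) = b * (y₂ * y₂) * b⁻¹ := by group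
      _ = c := by rw [s2, hcb]
  have hcy : c * y = y * c := by rw [hc]; group
  have hyinv : y⁻¹ = y * c := inv_eq_of_mul_eq_one_right (by rw [← mul_assoc]; exact hcc)
  refine ⟨y * y₂, c, hw, ?_, ?_, hcz, ?_⟩
  · intro h0
    have h1 : y₂ = y⁻¹ := eq_inv_of_mul_eq_one_right h0
    rw [hyinv] at h1
    rcases hcz with a | a
    · rw [a, mul_one] at h1; exact hm1 h1
    · rw [a] at h1; exact hm2 h1
  · intro h0
    have h1 : y₂ = y⁻¹ * z := by rw [← h0]; group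
    rw [hyinv] at h1
    rcases hcz with a | a
    · rw [a, mul_one] at h1; exact hm2 h1
    · rw [a, mul_assoc, hz.sq, mul_one] at h1; exact hm1 h1
  · have e1 : b * (y * y₂) * b⁻¹ = y₂ * y₃ := by
      rw [hy₃]; calc b * (y * y₂) * b⁻¹ = (b * y * b⁻¹) * (b * y₂ * b⁻¹) := by group
        _ = _ := rfl
    have e2 : b * (y₂ * y₃) * b⁻¹ = y₃ * y := by
      calc b * (y₂ * y₃) * b⁻¹ = (b * y₂ * b⁻¹) * (b * y₃ * b⁻¹) := by group
        _ = _ := by rw [hy₄]
    rw [e1, e2]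
    calc y * y₂ * (y₂ * y₃) * (y₃ * y) = y * (y₂ * y₂) * (y₃ * y₃) * y := by group
      _ = y * c * c * y := by rw [s2, s3]
      _ = y * (c * c) * y := by group
      _ = c := by rw [hcc, mul_one]

/-- **The quaternion case.** -/
theorem card_of_Q8 (h : Sett ρ R b) {z w : G} (hz : IsZ ρ R b z) (hw : w ∈ R) (w1 : w * w = z)
    (w2 : (b * w * b⁻¹) * (b * w * b⁻¹) = z) (anti : (b * w * b⁻¹) * w = z * (w * (b * w * b⁻¹))) :
    Nat.card (W ρ R) ≤ 81 := by
  set w₂ := b * w * b⁻¹ with hw₂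
  have hw₂R : w₂ ∈ R := h.nb _ hw
  have hbw : ∀ v, ρ b (ρ w v) = ρ w₂ (ρ b v) := by
    intro v
    rw [← act_mul, ← act_mul, hw₂]
    congr 2
    group
  set C := W ρ R ⊓ LinearMap.ker (ρ b - 1) with hC
  have memC : ∀ v, v ∈ C ↔ v ∈ W ρ R ∧ ρ b v = v := by
    intro v
    simp only [hC, Submodule.mem_inf, LinearMap.mem_ker, LinearMap.sub_apply, Module.End.one_apply,
      sub_eq_zero]
  let Rg := LinearMap.range (ρ b - 1)
  have hcardC : Nat.card C ≤ 9 := by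
    refine le_trans ?_ h.rank
    let ψ : C → Rg := fun v => ⟨ρ w₂ v - ρ w v, by
      refine ⟨ρ w v, ?_⟩
      simp only [LinearMap.sub_apply, Module.End.one_apply]
      rw [hbw, ((memC _).1 v.2).2]⟩
    have hinj : Function.Injective ψ := by
      rintro ⟨v, hv⟩ ⟨v', hv'⟩ hh
      have h0 : ρ w₂ v - ρ w v = ρ w₂ v' - ρ w v' := congrArg Subtype.val hh
      have hu : ρ w₂ (v - v') = ρ w (v - v') := by
        rw [map_sub, map_sub]
        exact sub_eq_sub_iff_sub_eq_sub.mp h0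
      set u := v - v' with hud
      have huW : u ∈ W ρ R := (W ρ R).sub_mem ((memC _).1 hv).1 ((memC _).1 hv').1
      have a1 : ρ w₂ (ρ w₂ u) = -u := by
        rw [← act_mul, w2, hz.act u huW]
      have a2 : ρ w₂ (ρ w u) = u := by
        have a0 : ρ w (ρ w u) = ρ z u := by rw [← act_mul, w1]
        rw [← act_mul, anti, act_mul, act_mul, hu, a0, hz.act u huW, map_neg, hz.act u huW, neg_neg]
      have a3 : u = -u := by
        have a6 := a1
        rw [hu, a2] at a6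
        exact a6
      have a4 : u = 0 := eq_zero_of_eq_neg a3
      have a5 : v = v' := sub_eq_zero.mp a4
      subst a5
      rfl
    exact Nat.card_le_card_of_injective ψ hinj
  have h1 : Nat.card (W ρ R) ≤ Nat.card C * Nat.card Rg := by
    refine card_le_mul (ρ b - 1) ?_ ?_
    · intro w' hw' h0
      rw [memC]
      refine ⟨hw', ?_⟩
      have : ρ b w' - w' = 0 := h0
      exact sub_eq_zero.mp this
    · intro w' _
      exact ⟨w', rfl⟩
  have h2 : Nat.card Rg ≤ 9 := h.rank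
  calc Nat.card (W ρ R) ≤ Nat.card C * Nat.card Rg := h1
    _ ≤ 9 * 9 := Nat.mul_le_mul hcardC h2
    _ = 81 := by norm_num

/-- **The swapping case.** -/
theorem card_of_swap (h : Sett ρ R b) {z u₁ u₂ u₃ τ : G} {e₁' e₂' e₃' : E} (hz : IsZ ρ R b z)
    (hD' : FG ρ b u₁ u₂ u₃ e₁' e₂' e₃') (hτ : τ ∈ R) (hτu : τ * u₁ * τ⁻¹ = z * u₁) :
    Nat.card (W ρ R) ≤ 81 := by
  set C := W ρ R ⊓ LinearMap.ker (ρ u₁ - 1) with hC
  have memC : ∀ v, v ∈ C ↔ v ∈ W ρ R ∧ ρ u₁ v = v := by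
    intro v
    simp only [hC, Submodule.mem_inf, LinearMap.mem_ker, LinearMap.sub_apply, Module.End.one_apply,
      sub_eq_zero]
  let N := LinearMap.ker (ρ u₁ + 1)
  have memN : ∀ v, v ∈ N ↔ ρ u₁ v = -v := by
    intro v
    simp only [N, LinearMap.mem_ker, LinearMap.add_apply, Module.End.one_apply]
    exact add_eq_zero_iff_eq_neg
  have hN : Nat.card N ≤ 9 := card_neg_le hD'
  have hcomm : u₁ * τ = z * (τ * u₁) := by
    have h1 : τ * u₁ = z * u₁ * τ := by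
      rw [← hτu]; group
    rw [h1, ← mul_assoc, ← mul_assoc, hz.sq, one_mul]
  have hCN : Nat.card C ≤ Nat.card N := by
    let ψ : C → N := fun v => ⟨ρ τ v, by
      rw [memN, ← act_mul, hcomm, act_mul, act_mul, ((memC _).1 v.2).2,
        hz.act _ (W_act hτ ((memC _).1 v.2).1)]⟩
    have hinj : Function.Injective ψ := by
      rintro ⟨v, hv⟩ ⟨v', hv'⟩ hh
      have : ρ τ v = ρ τ v' := congrArg Subtype.val hh
      have := act_inj ρ τ this
      subst this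
      rfl
    exact Nat.card_le_card_of_injective ψ hinj
  have h1 : Nat.card (W ρ R) ≤ Nat.card C * Nat.card N := by
    refine card_le_mul (ρ u₁ - 1) ?_ ?_
    · intro w' hw' h0
      rw [memC]
      refine ⟨hw', ?_⟩
      have : ρ u₁ w' - w' = 0 := h0
      exact sub_eq_zero.mp this
    · intro w' _
      rw [memN]
      have h3 : ρ u₁ (ρ u₁ w') = w' := by rw [← act_mul, hD'.t1sq, act_one]
      show ρ u₁ (ρ u₁ w' - w') = -(ρ u₁ w' - w')
      rw [map_sub, h3]; abel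
  calc Nat.card (W ρ R) ≤ Nat.card C * Nat.card N := h1
    _ ≤ 9 * 9 := Nat.mul_le_mul (hCN.trans hN) hN
    _ = 81 := by norm_num


omit [Finite G] [Finite E] in
/-- Anticommutation in the quaternion case. -/
theorem anti_of_prod {z n w w₂ w₃ : G} (hzz : z * z = 1) (hw : w * w = z) (hw₂ : w₂ * w₂ = z)
    (hw₃ : w₃ * w₃ = z) (hn : n = 1 ∨ n = z) (cw : z * w = w * z) (cw₂ : z * w₂ = w₂ * z)
    (cw₃ : z * w₃ = w₃ * z) (hprod : w * w₂ * w₃ = n) : w₂ * w = z * (w * w₂) := by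
  have e1 : w * w₂ = n * w₃⁻¹ := eq_mul_inv_of_mul_eq hprod
  have hnn : n * n = 1 := by
    rcases hn with rfl | rfl
    · simp
    · exact hzz
  have hnc : n * w₃⁻¹ = w₃⁻¹ * n := by
    have hc : n * w₃ = w₃ * n := by
      rcases hn with rfl | rfl
      · simp
      · exact cw₃
    exact (Commute.inv_right hc)
  have hzinv : z⁻¹ = z := inv_eq_of_mul_eq_one_right hzz
  have e2 : (w * w₂) * (w * w₂) = z := by
    rw [e1]
    calc n * w₃⁻¹ * (n * w₃⁻¹) = n * (w₃⁻¹ * n) * w₃⁻¹ := by group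
      _ = n * (n * w₃⁻¹) * w₃⁻¹ := by rw [hnc]
      _ = (n * n) * (w₃ * w₃)⁻¹ := by group
      _ = z := by rw [hnn, hw₃, one_mul, hzinv]
  have e3 : w₂⁻¹ = z * w₂ := by
    apply inv_eq_of_mul_eq_one_right
    calc w₂ * (z * w₂) = (w₂ * z) * w₂ := by group
      _ = (z * w₂) * w₂ := by rw [cw₂]
      _ = z * (w₂ * w₂) := by group
      _ = 1 := by rw [hw₂, hzz]
  calc w₂ * w = w⁻¹ * ((w * w₂) * (w * w₂)) * w₂⁻¹ := by group
    _ = w⁻¹ * (w * w) * w₂⁻¹ := by rw [e2, hw]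
    _ = w * w₂⁻¹ := by group
    _ = w * (z * w₂) := by rw [e3]
    _ = (w * z) * w₂ := by group
    _ = (z * w) * w₂ := by rw [cw]
    _ = z * (w * w₂) := by group

/-- The four-group from an involution central modulo `z`. -/
theorem fg_of_w (h : Sett ρ R b) {z w n : G} (hz : IsZ ρ R b z) (hw : w ∈ R) (w1 : w * w = 1)
    (hn : n = 1 ∨ n = z) (hprod : w * (b * w * b⁻¹) * (b * (b * w * b⁻¹) * b⁻¹) = n)
    (hw1 : w ≠ 1) (hwz : w ≠ z) :
    ∃ e₁' e₂' e₃' : E, FG ρ b (w * n) ((b * w * b⁻¹) * n) ((b * (b * w * b⁻¹) * b⁻¹) * n)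
      e₁' e₂' e₃' := by
  set w₂ := b * w * b⁻¹ with hw₂
  set w₃ := b * w₂ * b⁻¹ with hw₃
  have hbn : b * n * b⁻¹ = n := by
    rcases hn with rfl | rfl
    · group
    · rw [mul_inv_eq_iff_eq_mul]; exact hz.cb.symm
  have hnn : n * n = 1 := by
    rcases hn with rfl | rfl
    · simp
    · exact hz.sq
  have hnR : ∀ x ∈ R, n * x = x * n := by
    rcases hn with rfl | rfl
    · intro x _; simp
    · exact hz.cr
  have hw₂R : w₂ ∈ R := h.nb _ hw
  have hw₃R : w₃ ∈ R := h.nb _ hw₂R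
  have s2 : w₂ * w₂ = 1 := by
    rw [hw₂]
    calc b * w * b⁻¹ * (b * w * b⁻¹) = b * (w * w) * b⁻¹ := by group
      _ = 1 := by rw [w1]; group
  have s3 : w₃ * w₃ = 1 := by
    rw [hw₃]
    calc b * w₂ * b⁻¹ * (b * w₂ * b⁻¹) = b * (w₂ * w₂) * b⁻¹ := by group
      _ = 1 := by rw [s2]; group
  have hinv3 : w₃⁻¹ = w₃ := inv_eq_of_mul_eq_one_right s3
  have e1 : w * w₂ = w₃ * n := by
    have := eq_mul_inv_of_mul_eq hprod
    rw [hinv3] at this
    rw [this]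
    exact hnR _ hw₃R
  refine exists_FG' h ?_ ?_ ?_ ?_ ?_
  · calc w * n * (w * n) = w * (n * w) * n := by group
      _ = w * (w * n) * n := by rw [hnR w hw]
      _ = (w * w) * (n * n) := by group
      _ = 1 := by rw [w1, hnn, one_mul]
  · calc w * n * (w₂ * n) = w * (n * w₂) * n := by group
      _ = w * (w₂ * n) * n := by rw [hnR w₂ hw₂R]
      _ = (w * w₂) * (n * n) := by group
      _ = w₃ * n := by rw [hnn, mul_one, e1]
  · calc b * (w * n) * b⁻¹ = (b * w * b⁻¹) * (b * n * b⁻¹) := by group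
      _ = w₂ * n := by rw [hbn]
  · calc b * (w₂ * n) * b⁻¹ = (b * w₂ * b⁻¹) * (b * n * b⁻¹) := by group
      _ = w₃ * n := by rw [hbn]
  · intro h0
    have h1 : w = n⁻¹ := eq_inv_of_mul_eq_one_left h0
    have h2 : n⁻¹ = n := inv_eq_of_mul_eq_one_right hnn
    rw [h2] at h1
    rcases hn with rfl | rfl
    · exact hw1 h1
    · exact hwz h1

/-- **The main bound.** -/
theorem card_W_main (h : Sett ρ R b) (hD : FG ρ b t₁ t₂ t₃ e₁ e₂ e₃) (ht1 : t₁ ∈ R) (hT : TT R T b) :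
    Nat.card (W ρ R) ≤ 81 := by
  have ht1ne : t₁ ≠ 1 := by
    rintro rfl
    have := hD.t1e2
    rw [act_one] at this
    exact hD.e2ne (eq_zero_of_eq_neg this)
  have hne : T ≠ ⊥ := by
    intro h0
    have : t₁ ∈ T := hT.cent t₁ ht1 (fun y hy => by
      rw [h0, Subgroup.mem_bot] at hy
      rw [hy]; simp)
    rw [h0, Subgroup.mem_bot] at this
    exact ht1ne this
  by_cases hI : ∃ a ∈ T, (∀ x ∈ T, a * x = x * a) ∧ a * a = 1 ∧ b * a * b⁻¹ ≠ a
  · obtain ⟨a, ha, hac, ha2, hab⟩ := hI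
    have ha₂T := hT.nb a ha
    obtain ⟨e₁', e₂', e₃', hD'⟩ := fg_of_invol (ρ := ρ) h ha2 (hac _ ha₂T) hab
    refine card_W_of_central_FG h hT hD' (T.mul_mem ha ha₂T) ?_
    intro x hx
    have h2 := (zT_conj hT.nb (fun y hy => hT.nb' h hy) ha hac).2 x hx
    calc a * (b * a * b⁻¹) * x = a * ((b * a * b⁻¹) * x) := by group
      _ = a * (x * (b * a * b⁻¹)) := by rw [h2]
      _ = (a * x) * (b * a * b⁻¹) := by group
      _ = (x * a) * (b * a * b⁻¹) := by rw [hac x hx]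
      _ = _ := by group
  · push Not at hI
    obtain ⟨z, hzT, hz, huniq⟩ := exists_isZ h hD ht1 hT hne hI
    have hz1 := hz.ne_one h hD ht1
    have hex : ∃ x ∈ T, x ≠ 1 ∧ x ≠ z := by
      by_contra hno
      push Not at hno
      have hall : ∀ x ∈ T, x = 1 ∨ x = z := by
        intro x hx
        by_cases h1 : x = 1
        · exact Or.inl h1
        · exact Or.inr (hno x hx h1)
      have h2 : t₁ ∈ T := hT.cent t₁ ht1 (fun y hy => by
        rcases hall y hy with rfl | rfl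
        · simp
        · exact (hz.cr t₁ ht1).symm)
      rcases hall t₁ h2 with h3 | h3
      · exact ht1ne h3
      · have h4 := hz.act e₁ (e_mem_W h hD ht1).1
        rw [← h3, hD.t1e1] at h4
        exact hD.e1ne (eq_zero_of_eq_neg h4)
    obtain ⟨w, n, hw, hw1, hwz, hn, hprod⟩ := exists_w h hD ht1 hT hz hzT hex
    have hwR := hT.le hw.mem
    rcases hw.sq with hs | hs
    · obtain ⟨e₁', e₂', e₃', hD'⟩ := fg_of_w (ρ := ρ) h hz hwR hs hn hprod hw1 hwz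
      have hnT : n ∈ T := by
        rcases hn with rfl | rfl
        · exact T.one_mem
        · exact hzT
      have hnR : ∀ x ∈ R, n * x = x * n := by
        rcases hn with rfl | rfl
        · intro x _; simp
        · exact hz.cr
      by_cases hcw : ∀ x ∈ T, w * x = x * w
      · exfalso
        have h1 : (w * n) * (w * n) = 1 := hD'.t1sq
        have h2 : ∀ x ∈ T, (w * n) * x = x * (w * n) := by
          intro x hx
          calc w * n * x = w * (n * x) := by group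
            _ = w * (x * n) := by rw [hnR x (hT.le hx)]
            _ = (w * x) * n := by group
            _ = (x * w) * n := by rw [hcw x hx]
            _ = _ := by group
        have hnn : n * n = 1 := by
          rcases hn with rfl | rfl
          · simp
          · exact hz.sq
        have hninv : n⁻¹ = n := inv_eq_of_mul_eq_one_right hnn
        rcases huniq _ (T.mul_mem hw.mem hnT) h2 h1 with h3 | h3
        · have h4 : w = n := by
            have := eq_inv_of_mul_eq_one_left h3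
            rwa [hninv] at this
          rcases hn with rfl | rfl
          · exact hw1 h4
          · exact hwz h4
        · have h4 : w = z * n⁻¹ := eq_mul_inv_of_mul_eq h3
          rw [hninv] at h4
          rcases hn with rfl | rfl
          · exact hwz (by rw [h4, mul_one])
          · exact hw1 (by rw [h4, hz.sq])
      · push Not at hcw
        obtain ⟨τ, hτ, hne'⟩ := hcw
        have h1 : τ * w * τ⁻¹ * w⁻¹ = z := by
          refine (hw.cm τ hτ).resolve_left ?_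
          intro h0
          apply hne'
          have h2 : τ * w * τ⁻¹ = w := mul_inv_eq_one.mp h0
          rw [mul_inv_eq_iff_eq_mul] at h2
          exact h2.symm
        have h2 : τ * w * τ⁻¹ = z * w := eq_mul_of_mul_inv_eq h1
        have hτu : τ * (w * n) * τ⁻¹ = z * (w * n) := by
          calc τ * (w * n) * τ⁻¹ = τ * w * (n * τ⁻¹) := by group
            _ = τ * w * (τ⁻¹ * n) := by rw [hnR _ (R.inv_mem (hT.le hτ))]
            _ = (τ * w * τ⁻¹) * n := by group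
            _ = z * (w * n) := by rw [h2]; group
        exact card_of_swap h hz hD' (hT.le hτ) hτu
    · have hb' : ∀ x ∈ T, b⁻¹ * x * b ∈ T := fun x hx => hT.nb' h hx
      have hbz : b * z * b⁻¹ = z := by
        rw [mul_inv_eq_iff_eq_mul]; exact hz.cb.symm
      have Aw₂ : AT T z (b * w * b⁻¹) := AT.conj hw hT.nb hb' hbz
      have Aw₃ : AT T z (b * (b * w * b⁻¹) * b⁻¹) := AT.conj Aw₂ hT.nb hb' hbz
      have s2 : (b * w * b⁻¹) * (b * w * b⁻¹) = z := by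
        calc (b * w * b⁻¹) * (b * w * b⁻¹) = b * (w * w) * b⁻¹ := by group
          _ = z := by rw [hs, hbz]
      have s3 : (b * (b * w * b⁻¹) * b⁻¹) * (b * (b * w * b⁻¹) * b⁻¹) = z := by
        calc (b * (b * w * b⁻¹) * b⁻¹) * (b * (b * w * b⁻¹) * b⁻¹)
            = b * ((b * w * b⁻¹) * (b * w * b⁻¹)) * b⁻¹ := by group
          _ = z := by rw [s2, hbz]
      refine card_of_Q8 h hz hwR hs s2 ?_
      exact anti_of_prod hz.sq hs s2 s3 hn (hz.cr _ hwR) (hz.cr _ (hT.le Aw₂.mem))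
        (hz.cr _ (hT.le Aw₃.mem)) hprod

end Cfsg.Agent.Lib.CubH
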