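import Mathlib
import Cfsg.Agent.Lib.CubH
import Cfsg.Agent.Lib.PCore
import Cfsg.Agent.Lib.Fpf3

/-!
# `R` is a `2`-group
-/

set_option autoImplicit false
set_option linter.unusedSectionVars false
set_option linter.unusedVariables false

namespace Cfsg.Agent.Lib.CubI

open Cfsg.Agent.Lib.CubA Cfsg.Agent.Lib.CubB Cfsg.Agent.Lib.CubC Cfsg.Agent.Lib.CubC.Sett
  Cfsg.Agent.Lib.CubD Cfsg.Agent.Lib.CubE Cfsg.Agent.Lib.CubF Cfsg.Agent.Lib.CubG
  Cfsg.Agent.Lib.CubH Cfsg.Agent.Lib.PCore Cfsg.Agent.Lib.T64 Cfsg.Agent.Lib.Fpf3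

variable {G : Type*} [Group G] {E : Type*} [AddCommGroup E] [Module (ZMod 3) E]
variable {ρ : Representation (ZMod 3) G E} {R : Subgroup G}
variable {b t₁ t₂ t₃ : G} {e₁ e₂ e₃ : E}

/-- Conjugation by `b` on `R`. -/
def sig (h : Sett ρ R b) : ↥R ≃* ↥R where
  toFun u := ⟨b * u * b⁻¹, h.nb _ u.2⟩
  invFun u := ⟨b⁻¹ * u * b, h.nb' u.2⟩
  left_inv u := by
    apply Subtype.ext
    show b⁻¹ * (b * (u : G) * b⁻¹) * b = u
    group
  right_inv u := by
    apply Subtype.ext
    show b * (b⁻¹ * (u : G) * b) * b⁻¹ = u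
    group
  map_mul' u v := by
    apply Subtype.ext
    show b * ((u : G) * v) * b⁻¹ = (b * u * b⁻¹) * (b * v * b⁻¹)
    group

theorem sig_val (h : Sett ρ R b) (u : ↥R) : ((sig h u : ↥R) : G) = b * u * b⁻¹ := rfl

variable [Finite G] [Finite E]

theorem char_b (h : Sett ρ R b) {A : Subgroup ↥R} (hA : A.Characteristic) {u : ↥R} (hu : u ∈ A) :
    sig h u ∈ A := by
  have := hA.fixed (sig h)
  rw [← this] at hu
  have h2 : (sig h).symm (sig h u) = u := (sig h).symm_apply_apply u
  rw [Subgroup.mem_comap] at hu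
  have h3 : sig h u ∈ A := by
    have h4 := (Subgroup.Characteristic.fixed hA (sig h).symm)
    rw [← h4, Subgroup.mem_comap]
    show (sig h).symm (sig h u) ∈ A
    rw [h2]
    rw [← this, Subgroup.mem_comap]
    exact hu
  exact h3

/-- Solvability and the absence of abelian sections kills the odd core. -/
theorem core_trivial (h : Sett ρ R b) (hD : FG ρ b t₁ t₂ t₃ e₁ e₂ e₃) (ht1 : t₁ ∈ R)
    [Group.IsSolvable ↥R] : pPrimeCore 2 ↥R = ⊥ := by
  by_contra hne
  let S : Set (Subgroup ↥R) := {A | A.Characteristic ∧ A ≠ ⊥ ∧ A ≤ pPrimeCore 2 ↥R}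
  have hSne : S.Nonempty := ⟨_, inferInstance, hne, le_rfl⟩
  obtain ⟨A, hA⟩ := S.toFinite.exists_minimal hSne
  obtain ⟨hAc, hAne, hAle⟩ := hA.1
  have hcomm : ⁅A, A⁆ = ⊥ := by
    by_contra hc
    have hlt : ⁅A, A⁆ < A := Group.IsSolvable.commutator_lt_of_ne_bot hAne
    have hmem : ⁅A, A⁆ ∈ S := by
      refine ⟨?_, hc, hlt.le.trans hAle⟩
      exact Subgroup.commutator_characteristic A A
    exact absurd (hA.2 hmem hlt.le) (not_le_of_gt hlt)
  have hAn : A.Normal := inferInstance
  have hcard : Nat.card (A.map R.subtype) = Nat.card A :=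
    Nat.card_congr (A.equivMapOfInjective _ R.subtype_injective).symm.toEquiv
  have h0 : A.map R.subtype = ⊥ := by
    refine no_abelian h hD ht1 ?_ ?_ ?_ ?_ ?_
    · exact Subgroup.map_subtype_le A
    · rintro r hr _ ⟨a, ha, rfl⟩
      exact ⟨⟨r, hr⟩ * a * ⟨r, hr⟩⁻¹, hAn.conj_mem a ha _, rfl⟩
    · rintro _ ⟨a, ha, rfl⟩
      exact ⟨sig h a, char_b h hAc ha, rfl⟩
    · rintro _ ⟨a, ha, rfl⟩ _ ⟨a', ha', rfl⟩
      have h1 := Subgroup.commutator_mem_commutator ha ha'
      rw [hcomm, Subgroup.mem_bot] at h1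
      have h2 : a * a' = a' * a := commutatorElement_eq_one_iff_mul_comm.mp h1
      exact congrArg Subtype.val h2
    · rw [hcard]
      have h2 : (Nat.card A).Coprime 2 := by
        have h3 : Nat.card A ∣ Nat.card (pPrimeCore 2 ↥R) :=
          Subgroup.card_dvd_of_le hAle
        exact Nat.Coprime.coprime_dvd_left h3 (card_pPrimeCore_coprime 2)
      have h3 : (Nat.card A).Coprime 3 := by
        have h4 : Nat.card A ∣ Nat.card ↥R := Subgroup.card_subgroup_dvd_card A
        have h5 : (Nat.card ↥R).Coprime 3 := by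
          rw [Nat.coprime_comm, Nat.Prime.coprime_iff_not_dvd (by norm_num)]
          exact h.card_not_dvd
        exact Nat.Coprime.coprime_dvd_left h4 h5
      have : (6 : ℕ) = 2 * 3 := rfl
      rw [this]
      exact Nat.Coprime.mul_right h2 h3
  apply hAne
  rw [eq_bot_iff]
  intro a ha
  have h1 : (a : G) ∈ A.map R.subtype := ⟨a, ha, rfl⟩
  rw [h0, Subgroup.mem_bot] at h1
  rw [Subgroup.mem_bot]
  exact Subtype.ext h1

/-- The `2`-core satisfies the hypotheses of the main bound. -/
theorem tt_core (h : Sett ρ R b) [Group.IsSolvable ↥R] (hcore : pPrimeCore 2 ↥R = ⊥) :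
    TT R ((pCore 2 ↥R).map R.subtype) b := by
  have : Fact (Nat.Prime 2) := ⟨Nat.prime_two⟩
  have hc : (pCore 2 ↥R).Characteristic := pCore_characteristic 2
  have hn : (pCore 2 ↥R).Normal := inferInstance
  refine ⟨Subgroup.map_subtype_le _, ?_, ?_, ?_, ?_⟩
  · rintro r hr _ ⟨a, ha, rfl⟩
    exact ⟨⟨r, hr⟩ * a * ⟨r, hr⟩⁻¹, hn.conj_mem a ha _, rfl⟩
  · rintro _ ⟨a, ha, rfl⟩
    exact ⟨sig h a, char_b h hc ha, rfl⟩
  · exact (isPGroup_pCore 2).map _
  · intro x hx hcx
    have h1 : (⟨x, hx⟩ : ↥R) ∈ Subgroup.centralizer (pCore 2 ↥R : Set ↥R) := by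
      rw [Subgroup.mem_centralizer_iff]
      intro y hy
      apply Subtype.ext
      exact (hcx y ⟨y, hy, rfl⟩).symm
    exact ⟨⟨x, hx⟩, centralizer_pCore_le 2 hcore h1, rfl⟩

/-- The centralizer of `b` in `R`. -/
def KK (h : Sett ρ R b) : Subgroup ↥R where
  carrier := {u | b * (u : G) * b⁻¹ = u}
  mul_mem' := by
    intro u v hu hv
    show b * ((u : G) * v) * b⁻¹ = (u : G) * v
    calc b * ((u : G) * v) * b⁻¹ = (b * u * b⁻¹) * (b * v * b⁻¹) := by group
      _ = _ := by rw [hu, hv]
  one_mem' := by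
    show b * ((1 : ↥R) : G) * b⁻¹ = ((1 : ↥R) : G)
    simp
  inv_mem' := by
    intro u hu
    show b * ((u⁻¹ : ↥R) : G) * b⁻¹ = ((u⁻¹ : ↥R) : G)
    have hu' : b * (u : G) * b⁻¹ = u := hu
    calc b * ((u⁻¹ : ↥R) : G) * b⁻¹ = (b * u * b⁻¹)⁻¹ := by
          simp only [InvMemClass.coe_inv]; group
      _ = _ := by rw [hu']; simp

theorem mem_KK {h : Sett ρ R b} {u : ↥R} : u ∈ KK h ↔ b * (u : G) * b⁻¹ = u := Iff.rfl

section

variable (h : Sett ρ R b) (hD : FG ρ b t₁ t₂ t₃ e₁ e₂ e₃) (ht1 : t₁ ∈ R)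
  (hW : Nat.card (W ρ R) ≤ 81)

include hD ht1 hW

theorem KK_comm {u : ↥R} (hu : u ∈ KK h) (v : ↥R) : u * v = v * u := by
  have hu' : (u : G) * b = b * u := by
    have := mem_KK.mp hu
    rw [mul_inv_eq_iff_eq_mul] at this
    exact this.symm
  apply Subtype.ext
  show (u : G) * v = v * u
  refine h.eq_of_W (R.mul_mem u.2 v.2) (R.mul_mem v.2 u.2) ?_
  intro w hw
  rw [act_mul, act_mul]
  rcases central_scalar h hD ht1 hW u.2 hu' with h1 | h1
  · rw [h1 w hw, h1 _ (W_act v.2 hw)]
  · rw [h1 w hw, h1 _ (W_act v.2 hw), map_neg]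

theorem KK_sq {u : ↥R} (hu : u ∈ KK h) : u * u = 1 := by
  have hu' : (u : G) * b = b * u := by
    have := mem_KK.mp hu
    rw [mul_inv_eq_iff_eq_mul] at this
    exact this.symm
  exact Subtype.ext (y_sq h hD ht1 hW u.2 hu')

theorem KK_normal : (KK h).Normal := by
  constructor
  intro u hu g
  have := KK_comm h hD ht1 hW hu g
  have h2 : g * u * g⁻¹ = u := by
    rw [← this]; group
  rw [h2]; exact hu

end

/-- The automorphism of the quotient by the centralizer of `b`. -/
noncomputable def qsig (h : Sett ρ R b) [hn : (KK h).Normal] : MulAut (↥R ⧸ KK h) :=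
  QuotientGroup.congr _ _ (sig h) (by
    ext z
    constructor
    · rintro ⟨w, hw, rfl⟩
      show sig h w ∈ KK h
      show b * (b * (w : G) * b⁻¹) * b⁻¹ = b * (w : G) * b⁻¹
      have hw' : b * (w : G) * b⁻¹ = w := hw
      rw [hw', hw']
    · intro hz
      refine ⟨(sig h).symm z, ?_, (sig h).apply_symm_apply z⟩
      have hz' : b * (z : G) * b⁻¹ = z := hz
      show b * (b⁻¹ * (z : G) * b) * b⁻¹ = b⁻¹ * (z : G) * b
      have h1 : (z : G) = b⁻¹ * z * b := by
        nth_rewrite 2 [← hz']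
        group
      rw [← h1, hz'])

theorem qsig_mk (h : Sett ρ R b) [hn : (KK h).Normal] (u : ↥R) :
    qsig h (u : ↥R ⧸ KK h) = ((sig h u : ↥R) : ↥R ⧸ KK h) := rfl

theorem fpf_qsig (h : Sett ρ R b) (hD : FG ρ b t₁ t₂ t₃ e₁ e₂ e₃) (ht1 : t₁ ∈ R)
    (hW : Nat.card (W ρ R) ≤ 81) [hn : (KK h).Normal] : Fpf (qsig h) := by
  have hs3 : ∀ u : ↥R, sig h (sig h (sig h u)) = u := by
    intro u
    apply Subtype.ext
    show b * (b * (b * (u : G) * b⁻¹) * b⁻¹) * b⁻¹ = u
    calc b * (b * (b * (u : G) * b⁻¹) * b⁻¹) * b⁻¹ = (b * b * b) * u * (b * b * b)⁻¹ := by group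
      _ = u := by rw [h.b3]; group
  constructor
  · intro t
    induction t using QuotientGroup.induction_on with
    | H t => rw [qsig_mk, qsig_mk, qsig_mk, hs3]
  · intro y hy
    induction y using QuotientGroup.induction_on with
    | H u =>
      rw [qsig_mk] at hy
      have h1 : u⁻¹ * sig h u ∈ KK h := QuotientGroup.eq.mp hy.symm
      set e := u⁻¹ * sig h u with he
      have h2 : sig h u = u * e := by rw [he]; group
      have h3 : sig h e = e := Subtype.ext (mem_KK.mp h1)
      have h4 : u * (e * e * e) = u := by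
        have a2 : sig h (sig h u) = u * e * e := by rw [h2, map_mul, h2, h3]
        have a3 : sig h (sig h (sig h u)) = u * e * e * e := by
          rw [a2, map_mul, map_mul, h2, h3]
        calc u * (e * e * e) = u * e * e * e := by group
          _ = sig h (sig h (sig h u)) := a3.symm
          _ = u := hs3 u
      have h6 : e * e = 1 := KK_sq h hD ht1 hW h1
      have h7 : e = 1 := by
        rw [h6, one_mul] at h4
        exact mul_left_cancel (h4.trans (mul_one u).symm)
      rw [h7, mul_one] at h2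
      have h8 : u ∈ KK h := by
        show b * (u : G) * b⁻¹ = u
        exact congrArg Subtype.val h2
      exact (QuotientGroup.eq_one_iff _).mpr h8

/-- `R` is a `2`-group. -/
theorem isP2 (h : Sett ρ R b) (hD : FG ρ b t₁ t₂ t₃ e₁ e₂ e₃) (ht1 : t₁ ∈ R)
    (hW : Nat.card (W ρ R) ≤ 81) (hcore : pPrimeCore 2 ↥R = ⊥) : IsPGroup 2 ↥R := by
  have hn : (KK h).Normal := KK_normal h hD ht1 hW
  have hF := fpf_qsig h hD ht1 hW
  have hpr : ∀ {s : ℕ}, s.Prime → s ∣ Nat.card ↥R → s = 2 := by
    intro s hs hsd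
    by_contra hs2
    have : Fact s.Prime := ⟨hs⟩
    obtain ⟨x, hx⟩ := exists_prime_orderOf_dvd_card' s hsd
    have hodd : Odd s := hs.odd_of_ne_two hs2
    -- `x` commutes with its conjugates
    have hcomm : ∀ r : ↥R, x * (r * x * r⁻¹) = (r * x * r⁻¹) * x := by
      intro r
      set u := r * x * r⁻¹ with hu
      set c := x * u * x⁻¹ * u⁻¹ with hc
      have hcK : c ∈ KK h := by
        have h1 := engel hF (x : ↥R ⧸ KK h) (r : ↥R ⧸ KK h)
        have h2 : ((c : ↥R) : ↥R ⧸ KK h) = 1 := by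
          rw [hc, hu]
          simp only [QuotientGroup.mk_mul, QuotientGroup.mk_inv]
          rw [h1]
          group
        exact (QuotientGroup.eq_one_iff _).mp h2
      have hcc : ∀ v : ↥R, c * v = v * c := KK_comm h hD ht1 hW hcK
      have hc2 : c * c = 1 := KK_sq h hD ht1 hW hcK
      have h1 : x * u = c * (u * x) := by rw [hc]; group
      have hk : ∀ k : ℕ, x ^ k * u = c ^ k * (u * x ^ k) := by
        intro k
        induction k with
        | zero => simp
        | succ k ih =>
          calc x ^ (k + 1) * u = x ^ k * (x * u) := by rw [pow_succ]; group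
            _ = x ^ k * (c * (u * x)) := by rw [h1]
            _ = (x ^ k * c) * (u * x) := by group
            _ = (c * x ^ k) * (u * x) := by rw [hcc]
            _ = c * (x ^ k * u) * x := by group
            _ = c * (c ^ k * (u * x ^ k)) * x := by rw [ih]
            _ = c ^ (k + 1) * (u * x ^ (k + 1)) := by
              have : c * c ^ k = c ^ k * c := by rw [← pow_succ, pow_succ']
              rw [pow_succ c, pow_succ x]
              calc c * (c ^ k * (u * x ^ k)) * x = (c * c ^ k) * (u * x ^ k * x) := by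
                    simp only [mul_assoc]
                _ = _ := by rw [this]; simp only [mul_assoc]
      have h2 := hk s
      rw [← hx, pow_orderOf_eq_one, one_mul, mul_one] at h2
      have h3 : c ^ orderOf x = 1 := by
        have : c ^ orderOf x * u = 1 * u := by rw [one_mul]; exact h2.symm
        exact mul_right_cancel this
      rw [hx] at h3
      obtain ⟨m, hm⟩ := hodd
      rw [hm, pow_succ, pow_mul, pow_two, hc2, one_pow, one_mul] at h3
      have h4 : x * u * x⁻¹ * u⁻¹ = 1 := h3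
      have h5 : x * u * x⁻¹ = u := mul_inv_eq_one.mp h4
      rw [mul_inv_eq_iff_eq_mul] at h5
      exact h5
    -- the normal closure
    let N := Subgroup.normalClosure ({x} : Set ↥R)
    have hmemS : ∀ y ∈ Group.conjugatesOfSet ({x} : Set ↥R), ∃ r : ↥R, y = r * x * r⁻¹ := by
      intro y hy
      rw [Group.mem_conjugatesOfSet_iff] at hy
      obtain ⟨a, ha, hay⟩ := hy
      rw [Set.mem_singleton_iff] at ha
      subst ha
      obtain ⟨c, hc⟩ := isConj_iff.mp hay
      exact ⟨c, hc.symm⟩
    have hgens : ∀ y ∈ Group.conjugatesOfSet ({x} : Set ↥R),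
        ∀ y' ∈ Group.conjugatesOfSet ({x} : Set ↥R), y * y' = y' * y := by
      intro y hy y' hy'
      obtain ⟨r, rfl⟩ := hmemS y hy
      obtain ⟨r', rfl⟩ := hmemS y' hy'
      have h1 := hcomm (r⁻¹ * r')
      calc r * x * r⁻¹ * (r' * x * r'⁻¹) = r * (x * (r⁻¹ * r' * x * (r⁻¹ * r')⁻¹)) * r⁻¹ := by group
        _ = r * ((r⁻¹ * r' * x * (r⁻¹ * r')⁻¹) * x) * r⁻¹ := by rw [h1]
        _ = _ := by group
    have hNc1 : ∀ g ∈ N, ∀ y ∈ Group.conjugatesOfSet ({x} : Set ↥R), g * y = y * g := by
      intro g hg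
      induction hg using Subgroup.closure_induction with
      | mem g hg => exact fun y hy => hgens g hg y hy
      | one => intro y _; simp
      | mul g g' _ _ hg hg' =>
        intro y hy
        calc g * g' * y = g * (g' * y) := by group
          _ = g * (y * g') := by rw [hg' y hy]
          _ = (g * y) * g' := by group
          _ = (y * g) * g' := by rw [hg y hy]
          _ = _ := by group
      | inv g _ hg =>
        intro y hy
        have := hg y hy
        exact (Commute.inv_left this)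
    have hNc : ∀ g ∈ N, ∀ g' ∈ N, g * g' = g' * g := by
      intro g hg g' hg'
      induction hg' using Subgroup.closure_induction with
      | mem y hy => exact hNc1 g hg y hy
      | one => simp
      | mul a a' _ _ ha ha' =>
        calc g * (a * a') = (g * a) * a' := by group
          _ = (a * g) * a' := by rw [ha]
          _ = a * (g * a') := by group
          _ = a * (a' * g) := by rw [ha']
          _ = _ := by group
      | inv a _ ha => exact (Commute.inv_right ha)
    have hNs : ∀ g ∈ N, g ^ s = 1 := by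
      intro g hg
      induction hg using Subgroup.closure_induction with
      | mem y hy =>
        obtain ⟨r, rfl⟩ := hmemS y hy
        rw [conj_pow, ← hx, pow_orderOf_eq_one]
        group
      | one => simp
      | mul a a' ha0 ha0' ha ha' =>
        rw [(show Commute a a' from hNc a ha0 a' ha0').mul_pow, ha, ha', one_mul]
      | inv a _ ha => rw [inv_pow, ha, inv_one]
    have hNp : IsPGroup s N := by
      intro g
      refine ⟨1, ?_⟩
      apply Subtype.ext
      rw [pow_one]
      exact hNs g g.2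
    have hNcop : (Nat.card N).Coprime 2 := by
      obtain ⟨k, hk⟩ := IsPGroup.iff_card.mp hNp
      rw [hk]
      apply Nat.Coprime.pow_left
      exact (Nat.coprime_primes hs Nat.prime_two).mpr hs2
    have hNn : N.Normal := Subgroup.normalClosure_normal
    have hle := le_pPrimeCore hNn hNcop
    rw [hcore] at hle
    have hxN : x ∈ N := Subgroup.subset_normalClosure (Set.mem_singleton x)
    have := hle hxN
    rw [Subgroup.mem_bot] at this
    rw [this, orderOf_one] at hx
    exact hs.one_lt.ne hx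
  have hcard := Nat.eq_prime_pow_of_unique_prime_dvd (Nat.card_pos (α := ↥R)).ne' hpr
  exact IsPGroup.of_card hcard

end Cfsg.Agent.Lib.CubI
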