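import Mathlib
import Cfsg.Agent.Lib.CubI
import Cfsg.Agent.Lib.LargeQuot

/-!
# The final structure of `R`: the abelian case
-/

set_option autoImplicit false
set_option linter.unusedSectionVars false
set_option linter.unusedVariables false

namespace Cfsg.Agent.Lib.CubJ

open Cfsg.Agent.Lib.CubA Cfsg.Agent.Lib.CubB Cfsg.Agent.Lib.CubC Cfsg.Agent.Lib.CubC.Sett
  Cfsg.Agent.Lib.CubD Cfsg.Agent.Lib.CubE Cfsg.Agent.Lib.CubF Cfsg.Agent.Lib.CubG
  Cfsg.Agent.Lib.CubH Cfsg.Agent.Lib.CubI Cfsg.Agent.Lib.T64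

variable {G : Type*} [Group G] {E : Type*} [AddCommGroup E] [Module (ZMod 3) E]
variable {ρ : Representation (ZMod 3) G E} {R : Subgroup G}
variable {b t₁ t₂ t₃ : G} {e₁ e₂ e₃ : E}

/-- An element commuting with a four-group acts on each of its eigenlines by a sign. -/
theorem sign' (hD : FG ρ b t₁ t₂ t₃ e₁ e₂ e₃) {k : G}
    (c1 : k * t₁ = t₁ * k) (c2 : k * t₂ = t₂ * k) : ρ k e₁ = e₁ ∨ ρ k e₁ = -e₁ := by
  have h1 : ρ t₁ (ρ k e₁) = ρ k e₁ := by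
    rw [← act_mul, ← c1, act_mul, hD.t1e1]
  have h2 : ρ t₂ (ρ k e₁) = -ρ k e₁ := by
    rw [← act_mul, ← c2, act_mul, hD.t2e1, map_neg]
  obtain ⟨a, ha⟩ := hD.eig₁ h1 h2
  have hne : ρ k e₁ ≠ 0 := by
    intro h0
    exact hD.e1ne (act_inj ρ k (h0.trans (map_zero _).symm))
  exact smul_fr hne ha

/-- Signs on the three lines. -/
theorem signs3 (hD : FG ρ b t₁ t₂ t₃ e₁ e₂ e₃) {k : G}
    (c1 : k * t₁ = t₁ * k) (c2 : k * t₂ = t₂ * k) :
    ∃ s₁ s₂ s₃ : ZMod 3, (s₁ = 1 ∨ s₁ = -1) ∧ (s₂ = 1 ∨ s₂ = -1) ∧ (s₃ = 1 ∨ s₃ = -1) ∧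
      ρ k e₁ = s₁ • e₁ ∧ ρ k e₂ = s₂ • e₂ ∧ ρ k e₃ = s₃ • e₃ := by
  have c3 : k * t₃ = t₃ * k := by
    rw [← hD.t12]
    calc k * (t₁ * t₂) = (k * t₁) * t₂ := by group
      _ = (t₁ * k) * t₂ := by rw [c1]
      _ = t₁ * (k * t₂) := by group
      _ = t₁ * (t₂ * k) := by rw [c2]
      _ = _ := by group
  have key : ∀ {x : E}, (ρ k x = x ∨ ρ k x = -x) →
      ∃ s : ZMod 3, (s = 1 ∨ s = -1) ∧ ρ k x = s • x := by
    rintro x (hx | hx)
    · exact ⟨1, Or.inl rfl, by rw [hx, one_smul]⟩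
    · exact ⟨-1, Or.inr rfl, by rw [hx, neg_smul, one_smul]⟩
  obtain ⟨s₁, h1, h1'⟩ := key (sign' hD c1 c2)
  obtain ⟨s₂, h2, h2'⟩ := key (sign' hD.shift c2 c3)
  obtain ⟨s₃, h3, h3'⟩ := key (sign' hD.shift.shift c3 c1)
  exact ⟨s₁, s₂, s₃, h1, h2, h3, h1', h2', h3'⟩

theorem pm_sq {s : ZMod 3} (hs : s = 1 ∨ s = -1) : s * s = 1 := by
  rcases hs with rfl | rfl <;> decide

omit [Group G] in
theorem inv_sign {g : Type*} [Group g] {ρ' : Representation (ZMod 3) g E} {k : g} {x : E} {s : ZMod 3}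
    (hs : s * s = 1) (h : ρ' k x = s • x) : ρ' k⁻¹ x = s • x := by
  have h1 : ρ' k⁻¹ (s • x) = x := by rw [← h, act_inv_act]
  rw [map_smul] at h1
  calc ρ' k⁻¹ x = (s * s) • ρ' k⁻¹ x := by rw [hs, one_smul]
    _ = s • (s • ρ' k⁻¹ x) := by rw [mul_smul]
    _ = s • x := by rw [h1]

/-- The elements acting with sign product one. -/
def LL (ρ : Representation (ZMod 3) G E) (e₁ e₂ e₃ : E) : Subgroup G where
  carrier := {g | ∃ s₁ s₂ s₃ : ZMod 3, s₁ * s₂ * s₃ = 1 ∧ ρ g e₁ = s₁ • e₁ ∧ ρ g e₂ = s₂ • e₂ ∧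
    ρ g e₃ = s₃ • e₃}
  mul_mem' := by
    rintro g g' ⟨s₁, s₂, s₃, hs, h1, h2, h3⟩ ⟨s₁', s₂', s₃', hs', h1', h2', h3'⟩
    refine ⟨s₁' * s₁, s₂' * s₂, s₃' * s₃, ?_, ?_, ?_, ?_⟩
    · calc s₁' * s₁ * (s₂' * s₂) * (s₃' * s₃) = (s₁ * s₂ * s₃) * (s₁' * s₂' * s₃') := by ring
        _ = 1 := by rw [hs, hs', one_mul]
    · rw [act_mul, h1', map_smul, h1, smul_smul]
    · rw [act_mul, h2', map_smul, h2, smul_smul]
    · rw [act_mul, h3', map_smul, h3, smul_smul]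
  one_mem' := ⟨1, 1, 1, by simp, by simp, by simp, by simp⟩
  inv_mem' := by
    rintro g ⟨s₁, s₂, s₃, hs, h1, h2, h3⟩
    have key : ∀ s : ZMod 3, s ≠ 0 → s * s = 1 := by decide
    have n1 : s₁ ≠ 0 := by
      rintro rfl
      simp at hs
    have n2 : s₂ ≠ 0 := by
      rintro rfl
      simp at hs
    have n3 : s₃ ≠ 0 := by
      rintro rfl
      simp at hs
    exact ⟨s₁, s₂, s₃, hs, inv_sign (key _ n1) h1, inv_sign (key _ n2) h2, inv_sign (key _ n3) h3⟩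

variable [Finite G] [Finite E]

/-- **The abelian case**: `R` is the four-group. -/
theorem case_a (h : Sett ρ R b) (hD : FG ρ b t₁ t₂ t₃ e₁ e₂ e₃) (ht1 : t₁ ∈ R)
    (hc1 : ∀ r ∈ R, r * t₁ = t₁ * r) :
    Cfsg.IsElementaryAbelian 2 R ∧ Nat.card R = 4 := by
  have ht2 : t₂ ∈ R := by rw [← hD.bt1]; exact h.nb _ ht1
  have ht3 : t₃ ∈ R := by rw [← hD.bt2]; exact h.nb _ ht2
  have hc2 : ∀ r ∈ R, r * t₂ = t₂ * r := by
    intro r hr
    have h1 := hc1 _ (h.nb' hr)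
    rw [← hD.bt1]
    calc r * (b * t₁ * b⁻¹) = b * ((b⁻¹ * r * b) * t₁) * b⁻¹ := by group
      _ = b * (t₁ * (b⁻¹ * r * b)) * b⁻¹ := by rw [h1]
      _ = _ := by group
  have hc3 : ∀ r ∈ R, r * t₃ = t₃ * r := by
    intro r hr
    rw [← hD.t12]
    calc r * (t₁ * t₂) = (r * t₁) * t₂ := by group
      _ = (t₁ * r) * t₂ := by rw [hc1 r hr]
      _ = t₁ * (r * t₂) := by group
      _ = t₁ * (t₂ * r) := by rw [hc2 r hr]
      _ = _ := by group
  have hsg : ∀ r ∈ R, ∃ s₁ s₂ s₃ : ZMod 3, (s₁ = 1 ∨ s₁ = -1) ∧ (s₂ = 1 ∨ s₂ = -1) ∧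
      (s₃ = 1 ∨ s₃ = -1) ∧ ρ r e₁ = s₁ • e₁ ∧ ρ r e₂ = s₂ • e₂ ∧ ρ r e₃ = s₃ • e₃ :=
    fun r hr => signs3 hD (hc1 r hr) (hc2 r hr)
  -- `W` is spanned by the frame
  have hspan : ∀ w ∈ W ρ R, ∃ a₁ a₂ a₃ : ZMod 3, w = a₁ • e₁ + a₂ • e₂ + a₃ • e₃ := by
    intro w hw
    rw [W_eq_Y h hD ht1] at hw
    induction hw using Submodule.span_induction with
    | mem x hx =>
      obtain ⟨r, hr, hx⟩ := hx
      obtain ⟨s₁, s₂, s₃, -, -, -, h1, h2, h3⟩ := hsg r hr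
      rcases hx with rfl | rfl | rfl
      · exact ⟨s₁, 0, 0, by rw [h1]; simp⟩
      · exact ⟨0, s₂, 0, by rw [h2]; simp⟩
      · exact ⟨0, 0, s₃, by rw [h3]; simp⟩
    | zero => exact ⟨0, 0, 0, by simp⟩
    | add x y _ _ hx hy =>
      obtain ⟨a₁, a₂, a₃, rfl⟩ := hx
      obtain ⟨c₁, c₂, c₃, rfl⟩ := hy
      refine ⟨a₁ + c₁, a₂ + c₂, a₃ + c₃, ?_⟩
      simp only [add_smul]; abel
    | smul c x _ hx =>
      obtain ⟨a₁, a₂, a₃, rfl⟩ := hx
      refine ⟨c * a₁, c * a₂, c * a₃, ?_⟩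
      simp only [smul_add, mul_smul]
  have heq : ∀ {g g' : G}, g ∈ R → g' ∈ R → ρ g e₁ = ρ g' e₁ → ρ g e₂ = ρ g' e₂ →
      ρ g e₃ = ρ g' e₃ → g = g' := by
    intro g g' hg hg' a1 a2 a3
    refine h.eq_of_W hg hg' ?_
    intro w hw
    obtain ⟨c₁, c₂, c₃, rfl⟩ := hspan w hw
    simp only [map_add, map_smul, a1, a2, a3]
  -- product of the signs
  have hL : R ≤ LL ρ e₁ e₂ e₃ := by
    refine h.gen _ (fun r hr => ?_)
    obtain ⟨s₁, s₂, s₃, p1, p2, p3, h1, h2, h3⟩ := hsg r hr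
    have i1 := inv_sign (pm_sq p1) h1
    have i2 := inv_sign (pm_sq p2) h2
    have i3 := inv_sign (pm_sq p3) h3
    have b1 : ρ b⁻¹ e₁ = e₃ := by rw [← hD.be3, act_inv_act]
    have b2 : ρ b⁻¹ e₂ = e₁ := by rw [← hD.be1, act_inv_act]
    have b3 : ρ b⁻¹ e₃ = e₂ := by rw [← hD.be2, act_inv_act]
    refine ⟨s₃ * s₁, s₁ * s₂, s₂ * s₃, ?_, ?_, ?_, ?_⟩
    · calc s₃ * s₁ * (s₁ * s₂) * (s₂ * s₃) = (s₁ * s₁) * (s₂ * s₂) * (s₃ * s₃) := by ring
        _ = 1 := by rw [pm_sq p1, pm_sq p2, pm_sq p3]; simp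
    · simp only [act_mul]
      rw [b1, i3, map_smul, hD.be3, map_smul, h1, smul_smul]
    · simp only [act_mul]
      rw [b2, i1, map_smul, hD.be1, map_smul, h2, smul_smul]
    · simp only [act_mul]
      rw [b3, i2, map_smul, hD.be2, map_smul, h3, smul_smul]
  have hall : ∀ r ∈ R, r = 1 ∨ r = t₁ ∨ r = t₂ ∨ r = t₃ := by
    intro r hr
    obtain ⟨s₁, s₂, s₃, hp, h1, h2, h3⟩ := hL hr
    obtain ⟨s₁', s₂', s₃', p1, p2, p3, h1', h2', h3'⟩ := hsg r hr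
    have es1 : s₁ = s₁' := eq_of_smul_eq hD.e1ne (h1.symm.trans h1')
    have es2 : s₂ = s₂' := eq_of_smul_eq hD.e2ne (h2.symm.trans h2')
    have es3 : s₃ = s₃' := eq_of_smul_eq hD.e3ne (h3.symm.trans h3')
    subst es1 es2 es3
    rcases p1 with rfl | rfl <;> rcases p2 with rfl | rfl <;> rcases p3 with rfl | rfl
    · left
      refine heq hr R.one_mem ?_ ?_ ?_ <;> simp [h1, h2, h3]
    · exact absurd hp (by decide)
    · exact absurd hp (by decide)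
    · right; left
      refine heq hr ht1 ?_ ?_ ?_
      · simp [h1, hD.t1e1]
      · simp [h2, hD.t1e2]
      · simp [h3, hD.t1e3]
    · exact absurd hp (by decide)
    · right; right; left
      refine heq hr ht2 ?_ ?_ ?_
      · simp [h1, hD.t2e1]
      · simp [h2, hD.t2e2]
      · simp [h3, hD.t2e3]
    · right; right; right
      refine heq hr ht3 ?_ ?_ ?_
      · simp [h1, hD.t3e1]
      · simp [h2, hD.t3e2]
      · simp [h3, hD.t3e3]
    · exact absurd hp (by decide)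
  have hcen : ∀ r ∈ R, ∀ r' ∈ R, r * r' = r' * r := by
    intro r hr r' hr'
    rcases hall r hr with rfl | rfl | rfl | rfl
    · simp
    · exact (hc1 r' hr').symm
    · exact (hc2 r' hr').symm
    · exact (hc3 r' hr').symm
  have ne1 : t₁ ≠ 1 := by
    rintro rfl
    have := hD.t1e2
    rw [act_one] at this
    exact hD.e2ne (eq_zero_of_eq_neg this)
  have ne2 : t₂ ≠ 1 := by
    rintro rfl
    have := hD.t2e1
    rw [act_one] at this
    exact hD.e1ne (eq_zero_of_eq_neg this)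
  have ne3 : t₃ ≠ 1 := by
    rintro rfl
    have := hD.t3e1
    rw [act_one] at this
    exact hD.e1ne (eq_zero_of_eq_neg this)
  have ne12 : t₁ ≠ t₂ := by
    rintro rfl
    have h1 := hD.t2e1
    rw [hD.t1e1] at h1
    exact hD.e1ne (eq_zero_of_eq_neg h1)
  have ne13 : t₁ ≠ t₃ := by
    rintro rfl
    have h1 := hD.t3e1
    rw [hD.t1e1] at h1
    exact hD.e1ne (eq_zero_of_eq_neg h1)
  have ne23 : t₂ ≠ t₃ := by
    rintro rfl
    have h1 := hD.t3e2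
    rw [hD.t2e2] at h1
    exact hD.e2ne (eq_zero_of_eq_neg h1)
  constructor
  · refine ⟨⟨⟨fun x y => Subtype.ext (hcen _ x.2 _ y.2)⟩⟩, ?_⟩
    intro a ha
    rw [pow_two]
    rcases hall a ha with rfl | rfl | rfl | rfl
    · simp
    · exact hD.t1sq
    · exact hD.t2sq
    · exact hD.t3sq
  · have hset : (R : Set G) = {1, t₁, t₂, t₃} := by
      ext x
      simp only [SetLike.mem_coe, Set.mem_insert_iff, Set.mem_singleton_iff]
      constructor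
      · exact hall x
      · rintro (rfl | rfl | rfl | rfl)
        · exact R.one_mem
        · exact ht1
        · exact ht2
        · exact ht3
    have h1 : Nat.card R = Set.ncard (R : Set G) := Nat.card_coe_set_eq (R : Set G)
    rw [h1, hset, Set.ncard_insert_of_notMem, Set.ncard_insert_of_notMem, Set.ncard_pair ne23]
    · simp only [Set.mem_insert_iff, Set.mem_singleton_iff]
      push Not
      exact ⟨ne12, ne13⟩
    · simp only [Set.mem_insert_iff, Set.mem_singleton_iff]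
      push Not
      exact ⟨ne1.symm, ne2.symm, ne3.symm⟩

end Cfsg.Agent.Lib.CubJ
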