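import Mathlib
import Cfsg.Agent.Lib.CubJ

/-!
# The final structure of `R`: the frame and its diagonal elements
-/

set_option autoImplicit false
set_option linter.unusedSectionVars false
set_option linter.unusedVariables false

namespace Cfsg.Agent.Lib.CubK

open Cfsg.Agent.Lib.CubA Cfsg.Agent.Lib.CubB Cfsg.Agent.Lib.CubC Cfsg.Agent.Lib.CubC.Sett
  Cfsg.Agent.Lib.CubD Cfsg.Agent.Lib.CubE Cfsg.Agent.Lib.CubF Cfsg.Agent.Lib.CubG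
  Cfsg.Agent.Lib.CubH Cfsg.Agent.Lib.CubI Cfsg.Agent.Lib.CubJ Cfsg.Agent.Lib.T64

variable {G : Type*} [Group G] {E : Type*} [AddCommGroup E] [Module (ZMod 3) E]
variable {ρ : Representation (ZMod 3) G E} {R : Subgroup G}
variable {b t₁ t₂ t₃ z : G} {e₁ e₂ e₃ v : E}

variable [Finite G] [Finite E]

/-- The frame with its fourth vector. -/
structure Fr4 (ρ : Representation (ZMod 3) G E) (R : Subgroup G) (b t₁ t₂ : G) (e₁ e₂ e₃ v : E) :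
    Prop where
  vW : v ∈ W ρ R
  v1 : ρ t₁ v = v
  v2 : ρ t₂ v = v
  vb : ρ b v = v
  sp : ∀ w ∈ W ρ R, ∃ a₁ a₂ a₃ a₄ : ZMod 3, w = a₁ • e₁ + a₂ • e₂ + a₃ • e₃ + a₄ • v
  v0 : v ≠ 0

theorem eq_frame (h : Sett ρ R b) (hF : Fr4 ρ R b t₁ t₂ e₁ e₂ e₃ v) {g g' : G} (hg : g ∈ R)
    (hg' : g' ∈ R) (a1 : ρ g e₁ = ρ g' e₁) (a2 : ρ g e₂ = ρ g' e₂) (a3 : ρ g e₃ = ρ g' e₃)
    (a4 : ρ g v = ρ g' v) : g = g' := by
  refine h.eq_of_W hg hg' (fun w hw => ?_)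
  obtain ⟨c₁, c₂, c₃, c₄, rfl⟩ := hF.sp w hw
  simp only [map_add, map_smul, a1, a2, a3, a4]

omit [Finite G] [Finite E] in
theorem fix_t1 (hD : FG ρ b t₁ t₂ t₃ e₁ e₂ e₃) (hv1 : ρ t₁ v = v) (hv2 : ρ t₂ v = v)
    {a₁ a₂ a₃ a₄ : ZMod 3}
    (hf : ρ t₁ (a₁ • e₁ + a₂ • e₂ + a₃ • e₃ + a₄ • v) = a₁ • e₁ + a₂ • e₂ + a₃ • e₃ + a₄ • v) :
    a₂ = 0 ∧ a₃ = 0 := by
  have c1 : ρ t₁ (a₄ • v) = a₄ • v := by rw [map_smul, hv1]
  have c2 : ρ t₂ (a₄ • v) = a₄ • v := by rw [map_smul, hv2]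
  have h1 : a₄ • v + a₁ • e₁ + (-a₂) • e₂ + (-a₃) • e₃ = a₄ • v + a₁ • e₁ + a₂ • e₂ + a₃ • e₃ := by
    calc a₄ • v + a₁ • e₁ + (-a₂) • e₂ + (-a₃) • e₃ =
        ρ t₁ (a₁ • e₁ + a₂ • e₂ + a₃ • e₃ + a₄ • v) := by
          simp only [map_add, map_smul, hv1, hD.t1e1, hD.t1e2, hD.t1e3, neg_smul, smul_neg]
          abel
      _ = a₁ • e₁ + a₂ • e₂ + a₃ • e₃ + a₄ • v := hf
      _ = _ := by abel
  exact ⟨zm_eq_zero (hD.coord₂ c1 c2 c1 c2 h1), zm_eq_zero (hD.coord₃ c1 c2 c1 c2 h1)⟩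

omit [Finite G] [Finite E] in
theorem fix_t2 (hD : FG ρ b t₁ t₂ t₃ e₁ e₂ e₃) (hv1 : ρ t₁ v = v) (hv2 : ρ t₂ v = v)
    {a₁ a₂ a₃ a₄ : ZMod 3}
    (hf : ρ t₂ (a₁ • e₁ + a₂ • e₂ + a₃ • e₃ + a₄ • v) = a₁ • e₁ + a₂ • e₂ + a₃ • e₃ + a₄ • v) :
    a₁ = 0 ∧ a₃ = 0 := by
  have c1 : ρ t₁ (a₄ • v) = a₄ • v := by rw [map_smul, hv1]
  have c2 : ρ t₂ (a₄ • v) = a₄ • v := by rw [map_smul, hv2]
  have h1 : a₄ • v + (-a₁) • e₁ + a₂ • e₂ + (-a₃) • e₃ = a₄ • v + a₁ • e₁ + a₂ • e₂ + a₃ • e₃ := by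
    calc a₄ • v + (-a₁) • e₁ + a₂ • e₂ + (-a₃) • e₃ =
        ρ t₂ (a₁ • e₁ + a₂ • e₂ + a₃ • e₃ + a₄ • v) := by
          simp only [map_add, map_smul, hv2, hD.t2e1, hD.t2e2, hD.t2e3, neg_smul, smul_neg]
          abel
      _ = a₁ • e₁ + a₂ • e₂ + a₃ • e₃ + a₄ • v := hf
      _ = _ := by abel
  exact ⟨zm_eq_zero (hD.coord₁ c1 c2 c1 c2 h1), zm_eq_zero (hD.coord₃ c1 c2 c1 c2 h1)⟩

/-- The frame has a nonzero fourth vector when an element negates the first involution. -/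
theorem exists_frame (h : Sett ρ R b) (hD : FG ρ b t₁ t₂ t₃ e₁ e₂ e₃) (ht1 : t₁ ∈ R)
    (hW : Nat.card (W ρ R) ≤ 81) (hz : IsZ ρ R b z) {τ : G} (hτ : τ ∈ R)
    (hτu : τ * t₁ * τ⁻¹ = z * t₁) : ∃ v, Fr4 ρ R b t₁ t₂ e₁ e₂ e₃ v := by
  obtain ⟨v, hvW, hv1, hv2, hvb, hF⟩ := frame_of_card h hD ht1 hW
  refine ⟨v, hvW, hv1, hv2, hvb, hF, ?_⟩
  rintro rfl
  obtain ⟨he1, he2, he3⟩ := e_mem_W h hD ht1
  have hcomm : t₁ * τ = z * (τ * t₁) := by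
    have h1 : τ * t₁ = z * t₁ * τ := by
      rw [← hτu]; group
    rw [h1, ← mul_assoc, ← mul_assoc, hz.sq, one_mul]
  have key : ∀ x ∈ W ρ R, ρ t₁ x = -x → ρ t₁ (ρ τ x) = ρ τ x := by
    intro x hx hf
    rw [← act_mul, hcomm, act_mul, act_mul, hf, map_neg, map_neg, hz.act _ (W_act hτ hx), neg_neg]
  have key2 : ∀ x ∈ W ρ R, x ≠ 0 → ρ t₁ x = -x → ρ τ x = e₁ ∨ ρ τ x = -e₁ := by
    intro x hx hx0 hf
    obtain ⟨a₁, a₂, a₃, a₄, ha⟩ := hF _ (W_act hτ hx)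
    have h1 := key x hx hf
    rw [ha] at h1
    obtain ⟨r2, r3⟩ := fix_t1 hD hv1 hv2 h1
    have hne : ρ τ x ≠ 0 := fun h0 => hx0 (act_inj ρ τ (h0.trans (map_zero _).symm))
    refine smul_fr (a := a₁) hne ?_
    rw [ha, r2, r3]
    simp
  have a2 := key2 e₂ he2 hD.e2ne hD.t1e2
  have a3 := key2 e₃ he3 hD.e3ne hD.t1e3
  have hne := e3_ne2 hD
  have hinj : ∀ {x y : E}, ρ τ x = ρ τ y → x = y := fun hh => act_inj ρ τ hh
  rcases a2 with a2 | a2 <;> rcases a3 with a3 | a3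
  · exact hne.1 (hinj (a3.trans a2.symm))
  · apply hne.2
    apply hinj
    rw [a3, map_neg, a2]
  · apply hne.2
    apply hinj
    rw [a3, map_neg, a2, neg_neg]
  · exact hne.1 (hinj (a3.trans a2.symm))

/-- An element commuting with the four-group has a sign on the fourth vector. -/
theorem diag_v (hD : FG ρ b t₁ t₂ t₃ e₁ e₂ e₃) (hF : Fr4 ρ R b t₁ t₂ e₁ e₂ e₃ v) {k : G}
    (hk : k ∈ R) (c1 : k * t₁ = t₁ * k) (c2 : k * t₂ = t₂ * k) :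
    ∃ s : ZMod 3, (s = 1 ∨ s = -1) ∧ ρ k v = s • v := by
  obtain ⟨a₁, a₂, a₃, a₄, ha⟩ := hF.sp _ (W_act hk hF.vW)
  have h1 : ρ t₁ (ρ k v) = ρ k v := by rw [← act_mul, ← c1, act_mul, hF.v1]
  have h2 : ρ t₂ (ρ k v) = ρ k v := by rw [← act_mul, ← c2, act_mul, hF.v2]
  rw [ha] at h1 h2
  obtain ⟨r2, r3⟩ := fix_t1 hD hF.v1 hF.v2 h1
  obtain ⟨r1, -⟩ := fix_t2 hD hF.v1 hF.v2 h2
  have h3 : ρ k v = a₄ • v := by
    rw [ha, r1, r2, r3]; simp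
  have hne : ρ k v ≠ 0 := fun h0 => hF.v0 (act_inj ρ k (h0.trans (map_zero _).symm))
  rcases zm_cases a₄ with r | r | r
  · rw [r, zero_smul] at h3; exact absurd h3 hne
  · exact ⟨a₄, Or.inl r, h3⟩
  · exact ⟨a₄, Or.inr r, h3⟩

/-- **The parity of the signs.** -/
theorem parity (h : Sett ρ R b) (hD : FG ρ b t₁ t₂ t₃ e₁ e₂ e₃) (ht1 : t₁ ∈ R)
    (hW : Nat.card (W ρ R) ≤ 81) (hF : Fr4 ρ R b t₁ t₂ e₁ e₂ e₃ v) {k : G} (hk : k ∈ R)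
    {s₁ s₂ s₃ s₄ : ZMod 3} (p1 : s₁ = 1 ∨ s₁ = -1) (p2 : s₂ = 1 ∨ s₂ = -1) (p3 : s₃ = 1 ∨ s₃ = -1)
    (p4 : s₄ = 1 ∨ s₄ = -1) (h1 : ρ k e₁ = s₁ • e₁) (h2 : ρ k e₂ = s₂ • e₂) (h3 : ρ k e₃ = s₃ • e₃)
    (h4 : ρ k v = s₄ • v) : s₄ = s₁ * s₂ * s₃ := by
  have b1 : ρ b⁻¹ e₁ = e₃ := by rw [← hD.be3, act_inv_act]
  have b2 : ρ b⁻¹ e₂ = e₁ := by rw [← hD.be1, act_inv_act]
  have b3 : ρ b⁻¹ e₃ = e₂ := by rw [← hD.be2, act_inv_act]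
  have b4 : ρ b⁻¹ v = v := by
    have := act_inv_act ρ b v
    rwa [hF.vb] at this
  set k₂ := b * k * b⁻¹ with hk₂
  set k₃ := b * k₂ * b⁻¹ with hk₃
  have hk₂R : k₂ ∈ R := h.nb _ hk
  have hk₃R : k₃ ∈ R := h.nb _ hk₂R
  have hk₄ : b * k₃ * b⁻¹ = k := by
    rw [hk₃, hk₂]
    calc b * (b * (b * k * b⁻¹) * b⁻¹) * b⁻¹ = (b * b * b) * k * (b * b * b)⁻¹ := by group
      _ = k := by rw [h.b3]; group
  have a1 : ρ k₂ e₁ = s₃ • e₁ := by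
    rw [hk₂]; simp only [act_mul]; rw [b1, h3, map_smul, hD.be3]
  have a2 : ρ k₂ e₂ = s₁ • e₂ := by
    rw [hk₂]; simp only [act_mul]; rw [b2, h1, map_smul, hD.be1]
  have a3 : ρ k₂ e₃ = s₂ • e₃ := by
    rw [hk₂]; simp only [act_mul]; rw [b3, h2, map_smul, hD.be2]
  have a4 : ρ k₂ v = s₄ • v := by
    rw [hk₂]; simp only [act_mul]; rw [b4, h4, map_smul, hF.vb]
  have c1 : ρ k₃ e₁ = s₂ • e₁ := by
    rw [hk₃]; simp only [act_mul]; rw [b1, a3, map_smul, hD.be3]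
  have c2 : ρ k₃ e₂ = s₃ • e₂ := by
    rw [hk₃]; simp only [act_mul]; rw [b2, a1, map_smul, hD.be1]
  have c3 : ρ k₃ e₃ = s₁ • e₃ := by
    rw [hk₃]; simp only [act_mul]; rw [b3, a2, map_smul, hD.be2]
  have c4 : ρ k₃ v = s₄ • v := by
    rw [hk₃]; simp only [act_mul]; rw [b4, a4, map_smul, hF.vb]
  set p := k * k₂ * k₃ with hp
  have hpR : p ∈ R := R.mul_mem (R.mul_mem hk hk₂R) hk₃R
  have q1 : ρ p e₁ = (s₁ * s₂ * s₃) • e₁ := by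
    rw [hp]; simp only [act_mul, c1, a1, h1, map_smul, smul_smul]
    congr 1; ring
  have q2 : ρ p e₂ = (s₁ * s₂ * s₃) • e₂ := by
    rw [hp]; simp only [act_mul, c2, a2, h2, map_smul, smul_smul]
    congr 1; ring
  have q3 : ρ p e₃ = (s₁ * s₂ * s₃) • e₃ := by
    rw [hp]; simp only [act_mul, c3, a3, h3, map_smul, smul_smul]
    congr 1; ring
  have q4 : ρ p v = (s₄ * s₄ * s₄) • v := by
    rw [hp]; simp only [act_mul, c4, a4, h4, map_smul, smul_smul]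
    congr 1; ring
  have hbp : b * p * b⁻¹ = k₂ * k₃ * k := by
    rw [hp]
    calc b * (k * k₂ * k₃) * b⁻¹ = (b * k * b⁻¹) * (b * k₂ * b⁻¹) * (b * k₃ * b⁻¹) := by group
      _ = k₂ * k₃ * k := by rw [hk₄]
  have hcp : p * b = b * p := by
    have h5 : b * p * b⁻¹ = p := by
      rw [hbp]
      refine eq_frame h hF (R.mul_mem (R.mul_mem hk₂R hk₃R) hk) hpR ?_ ?_ ?_ ?_
      · rw [q1]; simp only [act_mul, c1, a1, h1, map_smul, smul_smul]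
        congr 1; ring
      · rw [q2]; simp only [act_mul, c2, a2, h2, map_smul, smul_smul]
        congr 1; ring
      · rw [q3]; simp only [act_mul, c3, a3, h3, map_smul, smul_smul]
        congr 1; ring
      · rw [q4]; simp only [act_mul, c4, a4, h4, map_smul, smul_smul]
        congr 1; ring
    rw [mul_inv_eq_iff_eq_mul] at h5
    exact h5.symm
  have he1 : e₁ ∈ W ρ R := (e_mem_W h hD ht1).1
  have key : ∀ a c : ZMod 3, (a = 1 ∨ a = -1) → (c = 1 → a * a * a = 1 → a = c) ∧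
      (c = -1 → a * a * a = -1 → a = c) := by decide
  rcases central_scalar h hD ht1 hW hpR hcp with h5 | h5
  · have r1 : (s₁ * s₂ * s₃) = 1 := by
      have := (h5 e₁ he1).symm.trans q1
      exact (eq_of_smul_eq hD.e1ne (by rw [one_smul]; exact this)).symm
    have r2 : s₄ * s₄ * s₄ = 1 := by
      have := (h5 v hF.vW).symm.trans q4
      exact (eq_of_smul_eq hF.v0 (by rw [one_smul]; exact this)).symm
    rw [r1]
    exact (key s₄ 1 p4).1 rfl r2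
  · have r1 : (s₁ * s₂ * s₃) = -1 := by
      have := (h5 e₁ he1).symm.trans q1
      exact (eq_of_smul_eq hD.e1ne (by rw [neg_smul, one_smul]; exact this)).symm
    have r2 : s₄ * s₄ * s₄ = -1 := by
      have := (h5 v hF.vW).symm.trans q4
      exact (eq_of_smul_eq hF.v0 (by rw [neg_smul, one_smul]; exact this)).symm
    rw [r1]
    exact (key s₄ (-1) p4).2 rfl r2

/-- Signs indexed by booleans. -/
def sg : Bool → ZMod 3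
  | true => -1
  | false => 1

theorem sg_sq (x : Bool) : sg x * sg x = 1 := by
  cases x <;> decide

theorem sg_inj {x y : Bool} (h : sg x = sg y) : x = y := by
  revert x y; decide

theorem sg_surj {s : ZMod 3} (hs : s = 1 ∨ s = -1) : ∃ x : Bool, sg x = s := by
  rcases hs with rfl | rfl
  · exact ⟨false, rfl⟩
  · exact ⟨true, rfl⟩

/-- The eight diagonal elements. -/
def gg (t₁ t₂ z : G) (p : Bool × Bool × Bool) : G :=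
  (cond p.1 t₁ 1) * (cond p.2.1 t₂ 1) * (cond p.2.2 z 1)

theorem gg_mem (hz : IsZ ρ R b z) (ht1 : t₁ ∈ R) (ht2 : t₂ ∈ R) (p : Bool × Bool × Bool) :
    gg t₁ t₂ z p ∈ R := by
  obtain ⟨i, j, l⟩ := p
  refine R.mul_mem (R.mul_mem ?_ ?_) ?_
  · cases i
    · exact R.one_mem
    · exact ht1
  · cases j
    · exact R.one_mem
    · exact ht2
  · cases l
    · exact R.one_mem
    · exact hz.mem

theorem gg_act (h : Sett ρ R b) (hD : FG ρ b t₁ t₂ t₃ e₁ e₂ e₃) (ht1 : t₁ ∈ R) (hz : IsZ ρ R b z)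
    (hF : Fr4 ρ R b t₁ t₂ e₁ e₂ e₃ v) (p : Bool × Bool × Bool) :
    ρ (gg t₁ t₂ z p) e₁ = (sg p.2.1 * sg p.2.2) • e₁ ∧
    ρ (gg t₁ t₂ z p) e₂ = (sg p.1 * sg p.2.2) • e₂ ∧
    ρ (gg t₁ t₂ z p) e₃ = (sg p.1 * sg p.2.1 * sg p.2.2) • e₃ ∧
    ρ (gg t₁ t₂ z p) v = sg p.2.2 • v := by
  obtain ⟨he1, he2, he3⟩ := e_mem_W h hD ht1
  have z1 := hz.act e₁ he1
  have z2 := hz.act e₂ he2
  have z3 := hz.act e₃ he3
  have z4 := hz.act v hF.vW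
  have a1 := hD.t1e1
  have a2 := hD.t1e2
  have a3 := hD.t1e3
  have a4 := hF.v1
  have c1 := hD.t2e1
  have c2 := hD.t2e2
  have c3 := hD.t2e3
  have c4 := hF.v2
  obtain ⟨i, j, l⟩ := p
  cases i <;> cases j <;> cases l <;>
    simp [gg, sg, act_mul, z1, z2, z3, z4, a1, a2, a3, a4, c1, c2, c3, c4]

/-- **Classification of the centralizer of the four-group.** -/
theorem classify (h : Sett ρ R b) (hD : FG ρ b t₁ t₂ t₃ e₁ e₂ e₃) (ht1 : t₁ ∈ R)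
    (hW : Nat.card (W ρ R) ≤ 81) (hz : IsZ ρ R b z) (hF : Fr4 ρ R b t₁ t₂ e₁ e₂ e₃ v) {k : G}
    (hk : k ∈ R) (c1 : k * t₁ = t₁ * k) (c2 : k * t₂ = t₂ * k) : ∃ p, k = gg t₁ t₂ z p := by
  have ht2 : t₂ ∈ R := by rw [← hD.bt1]; exact h.nb _ ht1
  obtain ⟨s₁, s₂, s₃, p1, p2, p3, h1, h2, h3⟩ := signs3 hD c1 c2
  obtain ⟨s₄, p4, h4⟩ := diag_v hD hF hk c1 c2
  have hpar := parity h hD ht1 hW hF hk p1 p2 p3 p4 h1 h2 h3 h4
  have pm : ∀ a c : ZMod 3, (a = 1 ∨ a = -1) → (c = 1 ∨ c = -1) → (a * c = 1 ∨ a * c = -1) := by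
    decide
  obtain ⟨l, hl⟩ := sg_surj p4
  obtain ⟨j, hj⟩ := sg_surj (pm _ _ p1 p4)
  obtain ⟨i, hi⟩ := sg_surj (pm _ _ p2 p4)
  refine ⟨(i, j, l), ?_⟩
  obtain ⟨a1, a2, a3, a4⟩ := gg_act h hD ht1 hz hF (i, j, l)
  have k1 : ∀ a c : ZMod 3, (c = 1 ∨ c = -1) → a * c * c = a := by decide
  have k3 : ∀ a c d : ZMod 3, (a = 1 ∨ a = -1) → (c = 1 ∨ c = -1) → (d = 1 ∨ d = -1) →
      (c * (a * c * d)) * (a * (a * c * d)) * (a * c * d) = d := by decide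
  refine eq_frame h hF hk (gg_mem hz ht1 ht2 _) ?_ ?_ ?_ ?_
  · rw [h1, a1]
    simp only [hj, hl]
    rw [k1 _ _ p4]
  · rw [h2, a2]
    simp only [hi, hl]
    rw [k1 _ _ p4]
  · rw [h3, a3]
    simp only [hi, hj, hl]
    rw [hpar, k3 _ _ _ p1 p2 p3]
  · rw [h4, a4]
    simp only [hl]

end Cfsg.Agent.Lib.CubK
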