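import Mathlib
import Cfsg.Agent.Lib.CubK

/-!
# The final structure of `R`: an involution central modulo the scalar
-/

set_option autoImplicit false
set_option linter.unusedSectionVars false
set_option linter.unusedVariables false

namespace Cfsg.Agent.Lib.CubL

open Cfsg.Agent.Lib.CubA Cfsg.Agent.Lib.CubB Cfsg.Agent.Lib.CubC Cfsg.Agent.Lib.CubC.Sett
  Cfsg.Agent.Lib.CubD Cfsg.Agent.Lib.CubE Cfsg.Agent.Lib.CubF Cfsg.Agent.Lib.CubG
  Cfsg.Agent.Lib.CubH Cfsg.Agent.Lib.CubI Cfsg.Agent.Lib.CubJ Cfsg.Agent.Lib.CubK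
  Cfsg.Agent.Lib.T64

variable {G : Type*} [Group G] {E : Type*} [AddCommGroup E] [Module (ZMod 3) E]
variable {ρ : Representation (ZMod 3) G E} {R : Subgroup G}
variable {b t₁ t₂ t₃ z : G} {e₁ e₂ e₃ v : E}

variable [Finite G] [Finite E]

/-- `R` as its own normal `2`-subgroup. -/
theorem tt_self (h : Sett ρ R b) (hP : IsPGroup 2 ↥R) : TT R R b :=
  ⟨le_rfl, fun r hr x hx => R.mul_mem (R.mul_mem hr hx) (R.inv_mem hr), h.nb, hP, fun x hx _ => hx⟩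

theorem not_bz (h : Sett ρ R b) (hz : IsZ ρ R b z) (hz1 : z ≠ 1) {y : G} (hy : b * y * b⁻¹ = y * z) :
    False := by
  have hbz : b * z * b⁻¹ = z := by
    rw [mul_inv_eq_iff_eq_mul]; exact hz.cb.symm
  have h5 : b * (b * (b * y * b⁻¹) * b⁻¹) * b⁻¹ = y := by
    calc b * (b * (b * y * b⁻¹) * b⁻¹) * b⁻¹ = (b * b * b) * y * (b * b * b)⁻¹ := by group
      _ = y := by rw [h.b3]; group
  rw [hy] at h5
  have h6 : b * (y * z) * b⁻¹ = y := by
    calc b * (y * z) * b⁻¹ = (b * y * b⁻¹) * (b * z * b⁻¹) := by group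
      _ = y * z * z := by rw [hy, hbz]
      _ = y := by rw [mul_assoc, hz.sq, mul_one]
  rw [h6, hy] at h5
  apply hz1
  exact mul_left_cancel (h5.trans (mul_one y).symm)

theorem cent_b (h : Sett ρ R b) (hD : FG ρ b t₁ t₂ t₃ e₁ e₂ e₃) (ht1 : t₁ ∈ R)
    (hW : Nat.card (W ρ R) ≤ 81) (hz : IsZ ρ R b z) {y : G} (hy : y ∈ R) (hyb : y * b = b * y) :
    y = 1 ∨ y = z := by
  rcases central_scalar h hD ht1 hW hy hyb with h1 | h1
  · left
    apply h.eq_one_of h1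
    intro f hf
    exact hf y hy
  · right
    exact h.eq_of_W hy hz.mem (fun w hw => by rw [h1 w hw, hz.act w hw])

/-- The product of the images of an element central modulo `z` is in `{1, z}`. -/
theorem norm_in_Z (h : Sett ρ R b) (hD : FG ρ b t₁ t₂ t₃ e₁ e₂ e₃) (ht1 : t₁ ∈ R)
    (hW : Nat.card (W ρ R) ≤ 81) (hz : IsZ ρ R b z) (hz1 : z ≠ 1) {w : G} (hw : AT R z w) :
    w * (b * w * b⁻¹) * (b * (b * w * b⁻¹) * b⁻¹) = 1 ∨
      w * (b * w * b⁻¹) * (b * (b * w * b⁻¹) * b⁻¹) = z := by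
  have hbz : b * z * b⁻¹ = z := by
    rw [mul_inv_eq_iff_eq_mul]; exact hz.cb.symm
  have hnb : ∀ x ∈ R, b * x * b⁻¹ ∈ R := h.nb
  have hnb' : ∀ x ∈ R, b⁻¹ * x * b ∈ R := fun x hx => h.nb' hx
  have hzc : ∀ x ∈ R, z * x = x * z := hz.cr
  set w₂ := b * w * b⁻¹ with hw₂
  set w₃ := b * w₂ * b⁻¹ with hw₃
  have hw₄ : b * w₃ * b⁻¹ = w := by
    rw [hw₃, hw₂]
    calc b * (b * (b * w * b⁻¹) * b⁻¹) * b⁻¹ = (b * b * b) * w * (b * b * b)⁻¹ := by group
      _ = w := by rw [h.b3]; group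
  have A2 : AT R z w₂ := AT.conj hw hnb hnb' hbz
  have A3 : AT R z w₃ := AT.conj A2 hnb hnb' hbz
  have A23 : AT R z (w₂ * w₃) := AT.mul hzc hz.sq A2 A3
  have hε := A23.cm w hw.mem
  set ε := w * (w₂ * w₃) * w⁻¹ * (w₂ * w₃)⁻¹ with hεd
  have h1 : w * (w₂ * w₃) = ε * ((w₂ * w₃) * w) := by rw [hεd]; group
  have hbn : b * (w * w₂ * w₃) * b⁻¹ = w₂ * w₃ * w := by
    calc b * (w * w₂ * w₃) * b⁻¹ = (b * w * b⁻¹) * (b * w₂ * b⁻¹) * (b * w₃ * b⁻¹) := by group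
      _ = w₂ * w₃ * w := by rw [hw₄]
  have hn : w * w₂ * w₃ = ε * (w₂ * w₃ * w) := by
    rw [mul_assoc w, h1]
  have hnR : w * w₂ * w₃ ∈ R := R.mul_mem (R.mul_mem hw.mem A2.mem) A3.mem
  have hcb : b * (w * w₂ * w₃) * b⁻¹ = w * w₂ * w₃ := by
    rcases hε with a | a
    · rw [hbn, hn, a, one_mul]
    · exfalso
      refine not_bz h hz hz1 (y := w * w₂ * w₃) ?_
      rw [hbn]
      have h3 := hzc _ (R.mul_mem A23.mem hw.mem)
      calc w₂ * w₃ * w = w₂ * w₃ * w * (z * z) := by rw [hz.sq, mul_one]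
        _ = (w₂ * w₃ * w * z) * z := by group
        _ = (z * (w₂ * w₃ * w)) * z := by rw [h3]
        _ = w * w₂ * w₃ * z := by rw [hn, a]
  exact cent_b h hD ht1 hW hz hnR (by
    rw [mul_inv_eq_iff_eq_mul] at hcb
    exact hcb.symm)

/-- There is an involution central modulo `z`. -/
theorem exists_w1 (h : Sett ρ R b) (hD : FG ρ b t₁ t₂ t₃ e₁ e₂ e₃) (ht1 : t₁ ∈ R)
    (hW : Nat.card (W ρ R) ≤ 81) (hP : IsPGroup 2 ↥R) (hz : IsZ ρ R b z) (hz1 : z ≠ 1)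
    (ht1ne : t₁ ≠ 1) (ht1z : t₁ ≠ z) :
    ∃ w, AT R z w ∧ w ≠ 1 ∧ w ≠ z ∧ w * w = 1 := by
  have hzc : ∀ x ∈ R, z * x = x * z := hz.cr
  have hbz : b * z * b⁻¹ = z := by
    rw [mul_inv_eq_iff_eq_mul]; exact hz.cb.symm
  have hnb : ∀ x ∈ R, b * x * b⁻¹ ∈ R := h.nb
  have hnb' : ∀ x ∈ R, b⁻¹ * x * b ∈ R := fun x hx => h.nb' hx
  have hself : ∀ x ∈ R, ∀ n ∈ R, x * n * x⁻¹ ∈ R :=
    fun x hx n hn => R.mul_mem (R.mul_mem hx hn) (R.inv_mem hx)
  obtain ⟨w₀, hw₀R, hw₀1, hw₀z, hw₀s, hw₀c⟩ := exists_mod_central (T := R) (N := R) hP le_rfl hself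
    hz.mem hzc hz.sq ⟨t₁, ht1, ht1ne, ht1z⟩
  have A0 : AT R z w₀ := ⟨hw₀R, hw₀s, hw₀c⟩
  rcases hw₀s with hs | hs
  · exact ⟨w₀, A0, hw₀1, hw₀z, hs⟩
  -- the quaternion case
  set w₂ := b * w₀ * b⁻¹ with hw₂
  set w₃ := b * w₂ * b⁻¹ with hw₃
  have A2 : AT R z w₂ := AT.conj A0 hnb hnb' hbz
  have A3 : AT R z w₃ := AT.conj A2 hnb hnb' hbz
  have s2 : w₂ * w₂ = z := by
    calc w₂ * w₂ = b * (w₀ * w₀) * b⁻¹ := by rw [hw₂]; group
      _ = z := by rw [hs, hbz]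
  have s3 : w₃ * w₃ = z := by
    calc w₃ * w₃ = b * (w₂ * w₂) * b⁻¹ := by rw [hw₃]; group
      _ = z := by rw [s2, hbz]
  have hn := norm_in_Z h hD ht1 hW hz hz1 A0
  have anti : w₂ * w₀ = z * (w₀ * w₂) :=
    anti_of_prod hz.sq hs s2 s3 hn (hzc _ hw₀R) (hzc _ A2.mem) (hzc _ A3.mem) rfl
  have anti' : w₀ * w₂ = z * (w₂ * w₀) := by
    rw [anti, ← mul_assoc z z, hz.sq, one_mul]
  -- the centralizer
  let C₁ : Subgroup G := R ⊓ Subgroup.centralizer ({w₀, w₂} : Set G)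
  have memC : ∀ g, g ∈ C₁ ↔ g ∈ R ∧ g * w₀ = w₀ * g ∧ g * w₂ = w₂ * g := by
    intro g
    simp only [C₁, Subgroup.mem_inf, Subgroup.mem_centralizer_iff, Set.mem_insert_iff,
      Set.mem_singleton_iff, forall_eq_or_imp, forall_eq]
    constructor
    · rintro ⟨a, c, d⟩
      exact ⟨a, c.symm, d.symm⟩
    · rintro ⟨a, c, d⟩
      exact ⟨a, c.symm, d.symm⟩
  have hnorm1 : ∀ {y : G}, AT R z y → ∀ x ∈ R, ∀ g ∈ R, g * y = y * g →
      (x * g * x⁻¹) * y = y * (x * g * x⁻¹) := by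
    intro y hy x hx g hg hgy
    have h1 := hy.cm x⁻¹ (R.inv_mem hx)
    rw [inv_inv] at h1
    set ε := x⁻¹ * y * x * y⁻¹ with hε
    have h2 : x⁻¹ * y * x = ε * y := by rw [hε]; group
    have hεc : ε * g = g * ε := by
      rcases h1 with a | a
      · rw [a]; simp
      · rw [a]; exact hzc g hg
    have h3 : g * (x⁻¹ * y * x) = (x⁻¹ * y * x) * g := by
      rw [h2]
      calc g * (ε * y) = (g * ε) * y := by group
        _ = (ε * g) * y := by rw [hεc]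
        _ = ε * (g * y) := by group
        _ = ε * (y * g) := by rw [hgy]
        _ = _ := by group
    calc x * g * x⁻¹ * y = x * (g * (x⁻¹ * y * x)) * x⁻¹ := by group
      _ = x * ((x⁻¹ * y * x) * g) * x⁻¹ := by rw [h3]
      _ = _ := by group
  have hC1n : ∀ x ∈ R, ∀ n ∈ C₁, x * n * x⁻¹ ∈ C₁ := by
    intro x hx n hn
    obtain ⟨a, c, d⟩ := (memC n).1 hn
    exact (memC _).2 ⟨R.mul_mem (R.mul_mem hx a) (R.inv_mem hx), hnorm1 A0 x hx n a c,
      hnorm1 A2 x hx n a d⟩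
  -- the element from `t₁`
  have hZc : ∀ {a : G}, (a = 1 ∨ a = z) → ∀ x ∈ R, a * x = x * a := by
    rintro a (rfl | rfl) x hx
    · simp
    · exact hzc x hx
  have hZcc : ∀ {a c : G}, (a = 1 ∨ a = z) → (c = 1 ∨ c = z) → a * c = c * a := by
    rintro a c (rfl | rfl) (rfl | rfl) <;> simp
  have hZs : ∀ {a : G}, (a = 1 ∨ a = z) → a * a = 1 := by
    rintro a (rfl | rfl)
    · simp
    · exact hz.sq
  have hsc : ∀ {ε ε' x x' y : G}, x * y = ε * (y * x) → x' * y = ε' * (y * x') → ε' * x = x * ε' →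
      ε' * ε = ε * ε' → (x * x') * y = (ε * ε') * (y * (x * x')) := by
    intro ε ε' x x' y h1 h2 hc hcc
    calc x * x' * y = x * (x' * y) := by group
      _ = x * (ε' * (y * x')) := by rw [h2]
      _ = (x * ε') * (y * x') := by group
      _ = (ε' * x) * (y * x') := by rw [hc]
      _ = ε' * ((x * y) * x') := by group
      _ = ε' * ((ε * (y * x)) * x') := by rw [h1]
      _ = (ε' * ε) * (y * (x * x')) := by group
      _ = _ := by rw [hcc]
  have hex : ∃ x ∈ C₁, x ≠ 1 ∧ x ≠ z := by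
    have h0 := hw₀c t₁ ht1
    have h2 := A2.cm t₁ ht1
    set ε₀ := t₁ * w₀ * t₁⁻¹ * w₀⁻¹ with hε₀
    set ε₂ := t₁ * w₂ * t₁⁻¹ * w₂⁻¹ with hε₂
    have e0 : t₁ * w₀ = ε₀ * (w₀ * t₁) := by rw [hε₀]; group
    have e2 : t₁ * w₂ = ε₂ * (w₂ * t₁) := by rw [hε₂]; group
    have hd : ∃ d ∈ R, (d = 1 ∨ d * d = z) ∧ d * w₀ = ε₀ * (w₀ * d) ∧ d * w₂ = ε₂ * (w₂ * d) := by
      rcases h0 with a0 | a0 <;> rcases h2 with a2 | a2 <;> rw [a0, a2]
      · exact ⟨1, R.one_mem, Or.inl rfl, by simp, by simp⟩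
      · exact ⟨w₀, hw₀R, Or.inr hs, by simp, anti'⟩
      · exact ⟨w₂, A2.mem, Or.inr s2, anti, by simp⟩
      · refine ⟨w₀ * w₂, R.mul_mem hw₀R A2.mem, Or.inr ?_, ?_, ?_⟩
        · calc w₀ * w₂ * (w₀ * w₂) = w₀ * (w₂ * w₀) * w₂ := by group
            _ = w₀ * (z * (w₀ * w₂)) * w₂ := by rw [anti]
            _ = (w₀ * z) * (w₀ * w₂) * w₂ := by group
            _ = (z * w₀) * (w₀ * w₂) * w₂ := by rw [hzc _ hw₀R]
            _ = z * (w₀ * w₀) * (w₂ * w₂) := by group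
            _ = z := by rw [hs, s2, hz.sq, one_mul]
        · have := hsc (ε := 1) (ε' := z) (x := w₀) (x' := w₂) (y := w₀) (by simp) anti (hzc _ hw₀R)
            (by simp)
          rwa [one_mul] at this
        · have := hsc (ε := z) (ε' := 1) (x := w₀) (x' := w₂) (y := w₂) anti' (by simp) (by simp)
            (by simp)
          rwa [mul_one] at this
    obtain ⟨d, hdR, hdd, hd0, hd2⟩ := hd
    have hgC : t₁ * d ∈ C₁ := by
      rw [memC]
      refine ⟨R.mul_mem ht1 hdR, ?_, ?_⟩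
      · have := hsc e0 hd0 (hZc h0 _ ht1) rfl
        rwa [hZs h0, one_mul] at this
      · have := hsc e2 hd2 (hZc h2 _ ht1) rfl
        rwa [hZs h2, one_mul] at this
    have hgc : ∀ c : G, (c = 1 ∨ c = z) → t₁ * d ≠ c := by
      intro c hc hg
      have ht : t₁ = c * d⁻¹ := eq_mul_inv_of_mul_eq hg
      have hsq : t₁ * t₁ = (d * d)⁻¹ := by
        calc t₁ * t₁ = (c * d⁻¹) * (c * d⁻¹) := by rw [← ht]
          _ = c * (d⁻¹ * c) * d⁻¹ := by group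
          _ = c * (c * d⁻¹) * d⁻¹ := by rw [hZc hc _ (R.inv_mem hdR)]
          _ = (c * c) * (d * d)⁻¹ := by group
          _ = _ := by rw [hZs hc, one_mul]
      rcases hdd with hd1 | hd1
      · rw [hd1, mul_one] at hg
        rcases hc with rfl | rfl
        · exact ht1ne hg
        · exact ht1z hg
      · rw [hD.t1sq, hd1] at hsq
        apply hz1
        have := congrArg (fun x => x⁻¹) hsq
        simpa using this.symm
    exact ⟨t₁ * d, hgC, hgc 1 (Or.inl rfl), hgc z (Or.inr rfl)⟩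
  have hC1R : C₁ ≤ R := inf_le_left
  obtain ⟨y₁, hy₁C, hy₁1, hy₁z, hy₁s, hy₁c⟩ := exists_mod_central hP hC1R hC1n hz.mem hzc hz.sq hex
  obtain ⟨hy₁R, hy0, hy2⟩ := (memC y₁).1 hy₁C
  have A1 : AT R z y₁ := ⟨hy₁R, hy₁s, hy₁c⟩
  rcases hy₁s with hs1 | hs1
  · exact ⟨y₁, A1, hy₁1, hy₁z, hs1⟩
  · refine ⟨w₀ * y₁, AT.mul hzc hz.sq A0 A1, ?_, ?_, ?_⟩
    · intro h0
      have h1 : y₁ = w₀⁻¹ := eq_inv_of_mul_eq_one_right h0
      rw [h1] at hy2
      have h3 : w₀ * w₂ = w₂ * w₀ := by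
        have := (Commute.inv_left (show Commute w₀⁻¹ w₂ from hy2))
        rw [inv_inv] at this
        exact this
      have h4 : w₀ * w₂ = z * (w₀ * w₂) := by
        calc w₀ * w₂ = w₂ * w₀ := h3
          _ = _ := anti
      apply hz1
      exact mul_right_cancel (h4.symm.trans (one_mul _).symm)
    · intro h0
      have h1 : y₁ = w₀⁻¹ * z := by rw [← h0]; group
      rw [h1] at hy2
      have h3 : w₀⁻¹ * w₂ = w₂ * w₀⁻¹ := by
        have c2 := hzc w₂ A2.mem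
        have : (w₀⁻¹ * w₂) * z = (w₂ * w₀⁻¹) * z := by
          calc (w₀⁻¹ * w₂) * z = w₀⁻¹ * (w₂ * z) := by group
            _ = w₀⁻¹ * (z * w₂) := by rw [c2]
            _ = w₀⁻¹ * z * w₂ := by group
            _ = w₂ * (w₀⁻¹ * z) := hy2
            _ = _ := by group
        exact mul_right_cancel this
      have h5 : w₀ * w₂ = w₂ * w₀ := by
        have := (Commute.inv_left (show Commute w₀⁻¹ w₂ from h3))
        rw [inv_inv] at this
        exact this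
      have h4 : w₀ * w₂ = z * (w₀ * w₂) := by
        calc w₀ * w₂ = w₂ * w₀ := h5
          _ = _ := anti
      apply hz1
      exact mul_right_cancel (h4.symm.trans (one_mul _).symm)
    · calc w₀ * y₁ * (w₀ * y₁) = w₀ * (y₁ * w₀) * y₁ := by group
        _ = w₀ * (w₀ * y₁) * y₁ := by rw [hy0]
        _ = (w₀ * w₀) * (y₁ * y₁) := by group
        _ = 1 := by rw [hs, hs1, hz.sq]

end Cfsg.Agent.Lib.CubL
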