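import Mathlib
import Cfsg.Agent.Lib.CubL

/-!
# The final structure of `R`: the extraspecial case
-/

set_option autoImplicit false
set_option linter.unusedSectionVars false
set_option linter.unusedVariables false

namespace Cfsg.Agent.Lib.CubM

open Cfsg.Agent.Lib.CubA Cfsg.Agent.Lib.CubB Cfsg.Agent.Lib.CubC Cfsg.Agent.Lib.CubC.Sett
  Cfsg.Agent.Lib.CubD Cfsg.Agent.Lib.CubE Cfsg.Agent.Lib.CubF Cfsg.Agent.Lib.CubG
  Cfsg.Agent.Lib.CubH Cfsg.Agent.Lib.CubI Cfsg.Agent.Lib.CubJ Cfsg.Agent.Lib.CubK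
  Cfsg.Agent.Lib.CubL Cfsg.Agent.Lib.T64

variable {G : Type*} [Group G] {E : Type*} [AddCommGroup E] [Module (ZMod 3) E]
variable {ρ : Representation (ZMod 3) G E} {R : Subgroup G}
variable {b t₁ t₂ t₃ z : G} {e₁ e₂ e₃ v : E}

/-- The commutator with a fixed element as a homomorphism to `{1, z}`. -/
def cmHom (hzz : z * z = 1) (R : Subgroup G) (hzc : ∀ x ∈ R, z * x = x * z) (t : G)
    (ht : ∀ r ∈ R, r * t * r⁻¹ * t⁻¹ = 1 ∨ r * t * r⁻¹ * t⁻¹ = z) : ↥R →* ↥(Zz z hzz) :=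
  MonoidHom.mk' (fun r => ⟨(r : G) * t * (r : G)⁻¹ * t⁻¹, ht r r.2⟩) (by
    intro r r'
    apply Subtype.ext
    show ((r : G) * r') * t * ((r : G) * r')⁻¹ * t⁻¹ =
      ((r : G) * t * (r : G)⁻¹ * t⁻¹) * ((r' : G) * t * (r' : G)⁻¹ * t⁻¹)
    have h1 := ht r r.2
    have h2 := ht r' r'.2
    set ε := (r : G) * t * (r : G)⁻¹ * t⁻¹ with hε
    set ε' := (r' : G) * t * (r' : G)⁻¹ * t⁻¹ with hε'
    have a1 : (r' : G) * t * (r' : G)⁻¹ = ε' * t := by rw [hε']; group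
    have hc : (r : G) * ε' * (r : G)⁻¹ = ε' := by
      rcases h2 with a | a
      · rw [a]; group
      · rw [a, ← hzc r r.2]; group
    have hcc : ε' * ε = ε * ε' := by
      rcases h1 with a | a <;> rcases h2 with c | c <;> rw [a, c] <;> simp
    calc ((r : G) * r') * t * ((r : G) * r')⁻¹ * t⁻¹
        = (r : G) * ((r' : G) * t * (r' : G)⁻¹) * (r : G)⁻¹ * t⁻¹ := by group
      _ = (r : G) * (ε' * t) * (r : G)⁻¹ * t⁻¹ := by rw [a1]
      _ = ((r : G) * ε' * (r : G)⁻¹) * ((r : G) * t * (r : G)⁻¹ * t⁻¹) := by group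
      _ = ε' * ε := by rw [hc]
      _ = ε * ε' := hcc)

theorem cmHom_val (hzz : z * z = 1) (hzc : ∀ x ∈ R, z * x = x * z) (t : G)
    (ht : ∀ r ∈ R, r * t * r⁻¹ * t⁻¹ = 1 ∨ r * t * r⁻¹ * t⁻¹ = z) (r : ↥R) :
    ((cmHom hzz R hzc t ht r : ↥(Zz z hzz)) : G) = (r : G) * t * (r : G)⁻¹ * t⁻¹ := rfl

theorem card_Zz (hzz : z * z = 1) (hz1 : z ≠ 1) : Nat.card (Zz z hzz) = 2 := by
  have hset : ((Zz z hzz : Subgroup G) : Set G) = {1, z} := by
    ext x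
    rfl
  have h1 : Nat.card (Zz z hzz) = Set.ncard ((Zz z hzz : Subgroup G) : Set G) :=
    Nat.card_coe_set_eq _
  rw [h1, hset, Set.ncard_pair hz1.symm]

variable [Finite G] [Finite E]

/-- Diagonal elements commute. -/
theorem comm_diag (h : Sett ρ R b) (hF : Fr4 ρ R b t₁ t₂ e₁ e₂ e₃ v) {g g' : G} (hg : g ∈ R)
    (hg' : g' ∈ R) {a₁ a₂ a₃ a₄ c₁ c₂ c₃ c₄ : ZMod 3}
    (h1 : ρ g e₁ = a₁ • e₁) (h2 : ρ g e₂ = a₂ • e₂) (h3 : ρ g e₃ = a₃ • e₃) (h4 : ρ g v = a₄ • v)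
    (h1' : ρ g' e₁ = c₁ • e₁) (h2' : ρ g' e₂ = c₂ • e₂) (h3' : ρ g' e₃ = c₃ • e₃)
    (h4' : ρ g' v = c₄ • v) : g * g' = g' * g := by
  refine eq_frame h hF (R.mul_mem hg hg') (R.mul_mem hg' hg) ?_ ?_ ?_ ?_
  · simp only [act_mul, h1, h1', map_smul, smul_smul, mul_comm]
  · simp only [act_mul, h2, h2', map_smul, smul_smul, mul_comm]
  · simp only [act_mul, h3, h3', map_smul, smul_smul, mul_comm]
  · simp only [act_mul, h4, h4', map_smul, smul_smul, mul_comm]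

/-- **The extraspecial case.** -/
theorem struct_b (h : Sett ρ R b) (hD : FG ρ b t₁ t₂ t₃ e₁ e₂ e₃) (ht1 : t₁ ∈ R)
    (hW : Nat.card (W ρ R) ≤ 81) (hP : IsPGroup 2 ↥R) (hz : IsZ ρ R b z) (hz1 : z ≠ 1)
    (huniq : ∀ a ∈ R, (∀ x ∈ R, a * x = x * a) → a * a = 1 → a = 1 ∨ a = z)
    (A1 : AT R z t₁) (ht1ne : t₁ ≠ 1) (ht1z : t₁ ≠ z) :
    Cfsg.IsExtraspecial 2 ↥R ∧ Nat.card R = 32 ∧
      ∃ A : Subgroup G, A ≤ R ∧ Cfsg.IsElementaryAbelian 2 A ∧ Nat.card A = 8 := by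
  have ht2 : t₂ ∈ R := by rw [← hD.bt1]; exact h.nb _ ht1
  have ht3 : t₃ ∈ R := by rw [← hD.bt2]; exact h.nb _ ht2
  have hbz : b * z * b⁻¹ = z := by
    rw [mul_inv_eq_iff_eq_mul]; exact hz.cb.symm
  have hnb : ∀ x ∈ R, b * x * b⁻¹ ∈ R := h.nb
  have hnb' : ∀ x ∈ R, b⁻¹ * x * b ∈ R := fun x hx => h.nb' hx
  have A2 : AT R z t₂ := by
    rw [← hD.bt1]; exact AT.conj A1 hnb hnb' hbz
  have A3 : AT R z t₃ := by
    rw [← hD.bt2, ← hD.bt1]; exact AT.conj (AT.conj A1 hnb hnb' hbz) hnb hnb' hbz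
  have hnc : ∃ τ ∈ R, τ * t₁ * τ⁻¹ = z * t₁ := by
    by_contra hno
    push Not at hno
    have hcen : ∀ x ∈ R, t₁ * x = x * t₁ := by
      intro x hx
      rcases A1.cm x hx with a | a
      · have h5 : x * t₁ * x⁻¹ = t₁ := mul_inv_eq_one.mp a
        rw [mul_inv_eq_iff_eq_mul] at h5
        exact h5.symm
      · exact absurd (eq_mul_of_mul_inv_eq a) (hno x hx)
    rcases huniq t₁ ht1 hcen hD.t1sq with a | a
    · exact absurd a ht1ne
    · exact absurd a ht1z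
  obtain ⟨τ, hτ, hτu⟩ := hnc
  obtain ⟨v, hF⟩ := exists_frame h hD ht1 hW hz hτ hτu
  -- the homomorphism
  let φ₁ := cmHom hz.sq R hz.cr t₁ A1.cm
  let φ₂ := cmHom hz.sq R hz.cr t₂ A2.cm
  let φ := φ₁.prod φ₂
  have hcm : ∀ {r t : G}, r * t * r⁻¹ * t⁻¹ = 1 ↔ r * t = t * r := by
    intro r t
    constructor
    · intro a
      have h5 : r * t * r⁻¹ = t := mul_inv_eq_one.mp a
      rw [mul_inv_eq_iff_eq_mul] at h5
      exact h5
    · intro a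
      rw [a]; group
  have hker : ∀ r : ↥R, r ∈ φ.ker ↔ (r : G) * t₁ = t₁ * r ∧ (r : G) * t₂ = t₂ * r := by
    intro r
    rw [MonoidHom.mem_ker]
    constructor
    · intro a
      have a1 : φ₁ r = 1 := congrArg Prod.fst a
      have a2 : φ₂ r = 1 := congrArg Prod.snd a
      exact ⟨hcm.1 (congrArg Subtype.val a1), hcm.1 (congrArg Subtype.val a2)⟩
    · rintro ⟨a1, a2⟩
      apply Prod.ext
      · exact Subtype.ext (hcm.2 a1)
      · exact Subtype.ext (hcm.2 a2)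
  -- actions
  have tE1 : ρ t₁ e₁ = (1 : ZMod 3) • e₁ := by rw [one_smul, hD.t1e1]
  have tE2 : ρ t₁ e₂ = (-1 : ZMod 3) • e₂ := by rw [neg_smul, one_smul, hD.t1e2]
  have tE3 : ρ t₁ e₃ = (-1 : ZMod 3) • e₃ := by rw [neg_smul, one_smul, hD.t1e3]
  have tE4 : ρ t₁ v = (1 : ZMod 3) • v := by rw [one_smul, hF.v1]
  have uE1 : ρ t₂ e₁ = (-1 : ZMod 3) • e₁ := by rw [neg_smul, one_smul, hD.t2e1]
  have uE2 : ρ t₂ e₂ = (1 : ZMod 3) • e₂ := by rw [one_smul, hD.t2e2]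
  have uE3 : ρ t₂ e₃ = (-1 : ZMod 3) • e₃ := by rw [neg_smul, one_smul, hD.t2e3]
  have uE4 : ρ t₂ v = (1 : ZMod 3) • v := by rw [one_smul, hF.v2]
  have gm := gg_mem (t₁ := t₁) (t₂ := t₂) hz ht1 ht2
  have ga := gg_act h hD ht1 hz hF
  have hg1 : ∀ p, gg t₁ t₂ z p * t₁ = t₁ * gg t₁ t₂ z p := fun p =>
    comm_diag h hF (gm p) ht1 (ga p).1 (ga p).2.1 (ga p).2.2.1 (ga p).2.2.2 tE1 tE2 tE3 tE4
  have hg2 : ∀ p, gg t₁ t₂ z p * t₂ = t₂ * gg t₁ t₂ z p := fun p =>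
    comm_diag h hF (gm p) ht2 (ga p).1 (ga p).2.1 (ga p).2.2.1 (ga p).2.2.2 uE1 uE2 uE3 uE4
  have hgc : ∀ p p', gg t₁ t₂ z p * gg t₁ t₂ z p' = gg t₁ t₂ z p' * gg t₁ t₂ z p := fun p p' =>
    comm_diag h hF (gm p) (gm p') (ga p).1 (ga p).2.1 (ga p).2.2.1 (ga p).2.2.2
      (ga p').1 (ga p').2.1 (ga p').2.2.1 (ga p').2.2.2
  have hgs : ∀ p, gg t₁ t₂ z p * gg t₁ t₂ z p = 1 := by
    intro p
    obtain ⟨a1, a2, a3, a4⟩ := ga p
    refine eq_frame h hF (R.mul_mem (gm p) (gm p)) R.one_mem ?_ ?_ ?_ ?_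
    · rw [act_mul, a1, map_smul, a1, smul_smul, act_one]
      have : sg p.2.1 * sg p.2.2 * (sg p.2.1 * sg p.2.2) = (sg p.2.1 * sg p.2.1) * (sg p.2.2 * sg p.2.2) := by
        ring
      rw [this, sg_sq, sg_sq, one_mul, one_smul]
    · rw [act_mul, a2, map_smul, a2, smul_smul, act_one]
      have : sg p.1 * sg p.2.2 * (sg p.1 * sg p.2.2) = (sg p.1 * sg p.1) * (sg p.2.2 * sg p.2.2) := by
        ring
      rw [this, sg_sq, sg_sq, one_mul, one_smul]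
    · rw [act_mul, a3, map_smul, a3, smul_smul, act_one]
      have : sg p.1 * sg p.2.1 * sg p.2.2 * (sg p.1 * sg p.2.1 * sg p.2.2) =
          (sg p.1 * sg p.1) * (sg p.2.1 * sg p.2.1) * (sg p.2.2 * sg p.2.2) := by ring
      rw [this, sg_sq, sg_sq, sg_sq, one_mul, one_mul, one_smul]
    · rw [act_mul, a4, map_smul, a4, smul_smul, act_one, sg_sq, one_smul]
  have hcl : ∀ r : ↥R, r ∈ φ.ker → ∃ p, (r : G) = gg t₁ t₂ z p := by
    intro r hr
    obtain ⟨c1, c2⟩ := (hker r).1 hr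
    exact classify h hD ht1 hW hz hF r.2 c1 c2
  -- the bijection
  let f : Bool × Bool × Bool → ↥φ.ker := fun p =>
    ⟨⟨gg t₁ t₂ z p, gm p⟩, (hker _).2 ⟨hg1 p, hg2 p⟩⟩
  have hfinj : Function.Injective f := by
    rintro ⟨i, j, l⟩ ⟨i', j', l'⟩ hp
    have hval : gg t₁ t₂ z (i, j, l) = gg t₁ t₂ z (i', j', l') :=
      congrArg (fun x : ↥φ.ker => ((x : ↥R) : G)) hp
    obtain ⟨a1, a2, a3, a4⟩ := ga (i, j, l)
    obtain ⟨c1, c2, c3, c4⟩ := ga (i', j', l')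
    rw [hval] at a1 a2 a4
    have e4 : sg l = sg l' := eq_of_smul_eq hF.v0 (a4.symm.trans c4)
    have el := sg_inj e4
    subst el
    have e1 : sg j * sg l = sg j' * sg l := eq_of_smul_eq hD.e1ne (a1.symm.trans c1)
    have e2 : sg i * sg l = sg i' * sg l := eq_of_smul_eq hD.e2ne (a2.symm.trans c2)
    have hcan : ∀ {x y s : ZMod 3}, s * s = 1 → x * s = y * s → x = y := by
      intro x y s hs hh
      calc x = x * (s * s) := by rw [hs, mul_one]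
        _ = (x * s) * s := by ring
        _ = (y * s) * s := by rw [hh]
        _ = y * (s * s) := by ring
        _ = y := by rw [hs, mul_one]
    have ej := sg_inj (hcan (sg_sq l) e1)
    have ei := sg_inj (hcan (sg_sq l) e2)
    subst ej ei
    rfl
  have hfsurj : Function.Surjective f := by
    rintro ⟨r, hr⟩
    obtain ⟨p, hp⟩ := hcl r hr
    refine ⟨p, ?_⟩
    apply Subtype.ext
    apply Subtype.ext
    exact hp.symm
  have hcardK : Nat.card ↥φ.ker = 8 := by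
    have h1 := Nat.card_congr (Equiv.ofBijective f ⟨hfinj, hfsurj⟩)
    rw [← h1]
    simp
  -- the elements moving the involutions
  let τ₀ : ↥R := ⟨τ, hτ⟩
  let τ₁ : ↥R := sig h τ₀
  let ζ : ↥(Zz z hz.sq) := ⟨z, Or.inr rfl⟩
  have hζ : ζ * ζ = 1 := Subtype.ext hz.sq
  have hzm : ∀ a : ↥(Zz z hz.sq), a = 1 ∨ a = ζ := by
    rintro ⟨a, ha⟩
    rcases ha with rfl | rfl
    · left; rfl
    · right; rfl
  have φ1τ₀ : φ₁ τ₀ = ζ := by
    apply Subtype.ext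
    show τ * t₁ * τ⁻¹ * t₁⁻¹ = z
    rw [hτu]; group
  set δ := φ₂ τ₀ with hδ
  set ε₂ := τ * t₂ * τ⁻¹ * t₂⁻¹ with hε₂
  have hδv : (δ : G) = ε₂ := rfl
  have hε₂m : ε₂ = 1 ∨ ε₂ = z := A2.cm τ hτ
  have hbε : b * ε₂ * b⁻¹ = ε₂ := by
    rcases hε₂m with a | a
    · rw [a]; group
    · rw [a, hbz]
  have hε₂c : ∀ x ∈ R, ε₂ * x = x * ε₂ := by
    intro x hx
    rcases hε₂m with a | a
    · rw [a]; simp
    · rw [a]; exact hz.cr x hx
  have τt2 : τ * t₂ * τ⁻¹ = ε₂ * t₂ := by rw [hε₂]; group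
  have τt3 : τ * t₃ * τ⁻¹ = z * ε₂ * t₃ := by
    rw [← hD.t12]
    calc τ * (t₁ * t₂) * τ⁻¹ = (τ * t₁ * τ⁻¹) * (τ * t₂ * τ⁻¹) := by group
      _ = (z * t₁) * (ε₂ * t₂) := by rw [hτu, τt2]
      _ = z * (t₁ * ε₂) * t₂ := by group
      _ = z * (ε₂ * t₁) * t₂ := by rw [hε₂c t₁ ht1]
      _ = _ := by group
  have b31 : b⁻¹ * t₁ * b = t₃ := by rw [← hD.bt3]; group
  have b12 : b⁻¹ * t₂ * b = t₁ := by rw [← hD.bt1]; group
  have φ1τ₁ : φ₁ τ₁ = ζ * δ := by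
    apply Subtype.ext
    show (b * τ * b⁻¹) * t₁ * (b * τ * b⁻¹)⁻¹ * t₁⁻¹ = z * ε₂
    calc (b * τ * b⁻¹) * t₁ * (b * τ * b⁻¹)⁻¹ * t₁⁻¹ = b * (τ * (b⁻¹ * t₁ * b) * τ⁻¹) * b⁻¹ * t₁⁻¹ := by
          group
      _ = b * (z * ε₂ * t₃) * b⁻¹ * t₁⁻¹ := by rw [b31, τt3]
      _ = (b * z * b⁻¹) * (b * ε₂ * b⁻¹) * (b * t₃ * b⁻¹) * t₁⁻¹ := by group
      _ = z * ε₂ * t₁ * t₁⁻¹ := by rw [hbz, hbε, hD.bt3]
      _ = z * ε₂ := by group
  have φ2τ₁ : φ₂ τ₁ = ζ := by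
    apply Subtype.ext
    show (b * τ * b⁻¹) * t₂ * (b * τ * b⁻¹)⁻¹ * t₂⁻¹ = z
    calc (b * τ * b⁻¹) * t₂ * (b * τ * b⁻¹)⁻¹ * t₂⁻¹ = b * (τ * (b⁻¹ * t₂ * b) * τ⁻¹) * b⁻¹ * t₂⁻¹ := by
          group
      _ = b * (z * t₁) * b⁻¹ * t₂⁻¹ := by rw [b12, hτu]
      _ = (b * z * b⁻¹) * (b * t₁ * b⁻¹) * t₂⁻¹ := by group
      _ = z * t₂ * t₂⁻¹ := by rw [hbz, hD.bt1]
      _ = z := by group
  have hφτ₀ : φ τ₀ = (ζ, δ) := Prod.ext φ1τ₀ rfl
  have hφτ₁ : φ τ₁ = (ζ * δ, ζ) := Prod.ext φ1τ₁ φ2τ₁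
  have hsurj' : ∀ q : ↥(Zz z hz.sq) × ↥(Zz z hz.sq), ∃ i j : ℕ, φ (τ₀ ^ i * τ₁ ^ j) = q := by
    rintro ⟨a, c⟩
    rcases hzm δ with hd | hd
    · rw [hd] at hφτ₀ hφτ₁
      rcases hzm a with rfl | rfl <;> rcases hzm c with rfl | rfl
      · exact ⟨0, 0, by simp; rfl⟩
      · exact ⟨1, 1, by simp [map_mul, hφτ₀, hφτ₁, hζ]⟩
      · exact ⟨1, 0, by simp [hφτ₀]⟩
      · exact ⟨0, 1, by simp [hφτ₁]⟩
    · rw [hd] at hφτ₀ hφτ₁
      rcases hzm a with rfl | rfl <;> rcases hzm c with rfl | rfl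
      · exact ⟨0, 0, by simp; rfl⟩
      · exact ⟨0, 1, by simp [hφτ₁, hζ]⟩
      · exact ⟨1, 1, by simp [map_mul, hφτ₀, hφτ₁, hζ]⟩
      · exact ⟨1, 0, by simp [hφτ₀]⟩
  have hdec : ∀ x : ↥R, ∃ d ∈ φ.ker, ∃ i j : ℕ, x = d * (τ₀ ^ i * τ₁ ^ j) := by
    intro x
    obtain ⟨i, j, hij⟩ := hsurj' (φ x)
    refine ⟨x * (τ₀ ^ i * τ₁ ^ j)⁻¹, ?_, i, j, (inv_mul_cancel_right x _).symm⟩
    rw [MonoidHom.mem_ker, map_mul, map_inv, hij, mul_inv_cancel]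
  have hsurj : Function.Surjective φ := fun q =>
    let ⟨i, j, hij⟩ := hsurj' q
    ⟨_, hij⟩
  have hcardR : Nat.card ↥R = 32 := by
    have h1 := Subgroup.card_mul_index φ.ker
    rw [Subgroup.index_ker, MonoidHom.range_eq_top.mpr hsurj, Subgroup.card_top, Nat.card_prod,
      card_Zz hz.sq hz1, hcardK] at h1
    omega
  -- the subgroup of order eight
  have hmemA : ∀ x ∈ φ.ker.map R.subtype, ∃ p, x = gg t₁ t₂ z p := by
    rintro _ ⟨r, hr, rfl⟩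
    exact hcl r hr
  have hE8 : Cfsg.IsElementaryAbelian 2 (φ.ker.map R.subtype) := by
    refine ⟨⟨⟨fun x y => Subtype.ext ?_⟩⟩, ?_⟩
    · obtain ⟨p, hp⟩ := hmemA _ x.2
      obtain ⟨p', hp'⟩ := hmemA _ y.2
      show (x : G) * y = y * x
      rw [hp, hp']
      exact hgc p p'
    · intro a ha
      obtain ⟨p, rfl⟩ := hmemA a ha
      rw [pow_two]
      exact hgs p
  have hcardA : Nat.card (φ.ker.map R.subtype) = 8 := by
    rw [← hcardK]
    exact Nat.card_congr (φ.ker.equivMapOfInjective _ R.subtype_injective).symm.toEquiv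
  -- the quotient
  have hn : (KK h).Normal := KK_normal h hD ht1 hW
  have hF' := fpf_qsig h hD ht1 hW
  have memK : ∀ u : ↥R, ((u : G) = 1 ∨ (u : G) = z) → u ∈ KK h := by
    rintro u (a | a)
    · show b * (u : G) * b⁻¹ = u
      rw [a]; group
    · show b * (u : G) * b⁻¹ = u
      rw [a, hbz]
  have memK' : ∀ u : ↥R, u ∈ KK h → (u : G) = 1 ∨ (u : G) = z := by
    intro u hu
    refine cent_b h hD ht1 hW hz u.2 ?_
    have hu' : b * (u : G) * b⁻¹ = u := hu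
    rw [mul_inv_eq_iff_eq_mul] at hu'
    exact hu'.symm
  have AT1 : AT R z (1 : G) := ⟨R.one_mem, Or.inl (by simp), fun x _ => Or.inl (by group)⟩
  have ATz : AT R z z := ⟨hz.mem, Or.inl hz.sq, fun x hx => Or.inl (by
    rw [← hz.cr x hx]; group)⟩
  have hAT_g : ∀ p, AT R z (gg t₁ t₂ z p) := by
    rintro ⟨i, j, l⟩
    refine AT.mul hz.cr hz.sq (AT.mul hz.cr hz.sq ?_ ?_) ?_
    · cases i
      · exact AT1
      · exact A1
    · cases j
      · exact AT1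
      · exact A2
    · cases l
      · exact AT1
      · exact ATz
  have hcen_K : ∀ d ∈ φ.ker, ∀ q : ↥R ⧸ KK h, Commute (d : ↥R ⧸ KK h) q := by
    intro d hd q
    induction q using QuotientGroup.induction_on with
    | H x =>
      obtain ⟨p, hp⟩ := hcl d hd
      have hc := (hAT_g p).cm x x.2
      rw [← hp] at hc
      have hk : x * d * x⁻¹ * d⁻¹ ∈ KK h := memK _ hc
      have h2 : ((x * d * x⁻¹ * d⁻¹ : ↥R) : ↥R ⧸ KK h) = 1 := (QuotientGroup.eq_one_iff _).mpr hk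
      simp only [QuotientGroup.mk_mul, QuotientGroup.mk_inv] at h2
      have h3 : (x : ↥R ⧸ KK h) * d * (x : ↥R ⧸ KK h)⁻¹ = d := mul_inv_eq_one.mp h2
      rw [mul_inv_eq_iff_eq_mul] at h3
      exact h3.symm
  have hAB : Commute (τ₀ : ↥R ⧸ KK h) (τ₁ : ↥R ⧸ KK h) := comm_self hF' (τ₀ : ↥R ⧸ KK h)
  have hss : ∀ i j i' j' : ℕ, Commute ((τ₀ : ↥R ⧸ KK h) ^ i * (τ₁ : ↥R ⧸ KK h) ^ j)
      ((τ₀ : ↥R ⧸ KK h) ^ i' * (τ₁ : ↥R ⧸ KK h) ^ j') := by
    intro i j i' j'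
    refine Commute.mul_left ?_ ?_
    · exact Commute.mul_right ((Commute.refl _).pow_pow i i') (hAB.pow_pow i j')
    · exact Commute.mul_right (hAB.symm.pow_pow j i') ((Commute.refl _).pow_pow j j')
  have hXc : ∀ x y : ↥R, Commute (x : ↥R ⧸ KK h) (y : ↥R ⧸ KK h) := by
    intro x y
    obtain ⟨d, hd, i, j, rfl⟩ := hdec x
    obtain ⟨d', hd', i', j', rfl⟩ := hdec y
    simp only [QuotientGroup.mk_mul, QuotientGroup.mk_pow]
    refine Commute.mul_left (hcen_K d hd _) ?_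
    exact Commute.mul_right (hcen_K d' hd' _).symm (hss i j i' j')
  have hcomm2 : ∀ x y : ↥R, (x : G) * y * (x : G)⁻¹ * (y : G)⁻¹ = 1 ∨
      (x : G) * y * (x : G)⁻¹ * (y : G)⁻¹ = z := by
    intro x y
    have h1 : ((x * y * x⁻¹ * y⁻¹ : ↥R) : ↥R ⧸ KK h) = 1 := by
      simp only [QuotientGroup.mk_mul, QuotientGroup.mk_inv]
      rw [(hXc x y).eq]
      group
    exact memK' _ ((QuotientGroup.eq_one_iff _).mp h1)
  have hcenG : ∀ a ∈ R, (∀ x ∈ R, a * x = x * a) → a = 1 ∨ a = z := by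
    intro a ha hc
    have hk : (⟨a, ha⟩ : ↥R) ∈ φ.ker := (hker _).2 ⟨hc _ ht1, hc _ ht2⟩
    obtain ⟨p, hp⟩ := hcl _ hk
    have hs : a * a = 1 := by
      have hp' : a = gg t₁ t₂ z p := hp
      rw [hp']
      exact hgs p
    exact huniq a ha hc hs
  refine ⟨?_, hcardR, φ.ker.map R.subtype, Subgroup.map_subtype_le _, hE8, hcardA⟩
  refine Cfsg.Agent.Lib.LargeQuot.extraspecial_of_elements hP ⟨z, hz.mem⟩ ?_ ?_ ?_ ?_ ?_
  · intro h0
    exact hz1 (congrArg Subtype.val h0)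
  · intro a c
    rcases hcomm2 a c with a1 | a1
    · left; exact Subtype.ext a1
    · right; exact Subtype.ext a1
  · intro a
    have hs : ∀ x ∈ R, ((a : G) * a) * x = x * ((a : G) * a) := by
      intro x hx
      have hε := hcomm2 a ⟨x, hx⟩
      set ε := (a : G) * x * (a : G)⁻¹ * x⁻¹ with hεd
      have e1 : (a : G) * x = ε * (x * a) := by rw [hεd]; group
      have hc : ε * (a : G) = a * ε := by
        rcases hε with c | c
        · rw [c]; simp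
        · rw [c]; exact hz.cr _ a.2
      have hee : ε * ε = 1 := by
        rcases hε with c | c
        · rw [c]; simp
        · rw [c]; exact hz.sq
      calc (a : G) * a * x = a * (a * x) := by group
        _ = a * (ε * (x * a)) := by rw [e1]
        _ = (a * ε) * (x * a) := by group
        _ = (ε * a) * (x * a) := by rw [hc]
        _ = ε * ((a * x) * a) := by group
        _ = ε * ((ε * (x * a)) * a) := by rw [e1]
        _ = (ε * ε) * (x * (a * a)) := by group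
        _ = _ := by rw [hee, one_mul]
    rw [pow_two]
    rcases hcenG _ (R.mul_mem a.2 a.2) hs with c | c
    · left; exact Subtype.ext c
    · right; exact Subtype.ext c
  · intro a hc
    rcases hcenG a a.2 (fun x hx => congrArg Subtype.val (hc ⟨x, hx⟩)) with c | c
    · left; exact Subtype.ext c
    · right; exact Subtype.ext c
  · refine ⟨τ₀, ⟨t₁, ht1⟩, ?_⟩
    intro h0
    have h1 : τ * t₁ * τ⁻¹ * t₁⁻¹ = 1 := congrArg Subtype.val h0
    rw [hτu] at h1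
    apply hz1
    have h2 : z * t₁ * t₁⁻¹ = z := by group
    rw [← h2, h1]

/-- **The final structure of `R`.** -/
theorem final_structure (h : Sett ρ R b) (hD : FG ρ b t₁ t₂ t₃ e₁ e₂ e₃) (ht1 : t₁ ∈ R)
    (hW : Nat.card (W ρ R) ≤ 81) (hP : IsPGroup 2 ↥R) :
    (Cfsg.IsElementaryAbelian 2 R ∧ Nat.card R = 4) ∨
    (Cfsg.IsExtraspecial 2 ↥R ∧ Nat.card R = 32 ∧
      ∃ A : Subgroup G, A ≤ R ∧ Cfsg.IsElementaryAbelian 2 A ∧ Nat.card A = 8) := by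
  have hT := tt_self h hP
  have ht1ne : t₁ ≠ 1 := by
    rintro rfl
    have := hD.t1e2
    rw [act_one] at this
    exact hD.e2ne (eq_zero_of_eq_neg this)
  have hne : R ≠ ⊥ := by
    intro h0
    rw [h0, Subgroup.mem_bot] at ht1
    exact ht1ne ht1
  by_cases hI : ∃ a ∈ R, (∀ x ∈ R, a * x = x * a) ∧ a * a = 1 ∧ b * a * b⁻¹ ≠ a
  · left
    obtain ⟨a, ha, hac, ha2, hab⟩ := hI
    have ha₂R := h.nb a ha
    obtain ⟨e₁', e₂', e₃', hD'⟩ := fg_of_invol (ρ := ρ) h ha2 (hac _ ha₂R) hab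
    refine case_a h hD' (R.mul_mem ha ha₂R) ?_
    intro r hr
    have h1 := (zT_conj (T := R) h.nb (fun y hy => h.nb' hy) ha hac).2 r hr
    calc r * (a * (b * a * b⁻¹)) = (r * a) * (b * a * b⁻¹) := by group
      _ = (a * r) * (b * a * b⁻¹) := by rw [hac r hr]
      _ = a * (r * (b * a * b⁻¹)) := by group
      _ = a * ((b * a * b⁻¹) * r) := by rw [h1]
      _ = _ := by group
  · right
    push Not at hI
    obtain ⟨z, hzR, hz, huniq⟩ := exists_isZ h hD ht1 hT hne hI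
    have hz1 := hz.ne_one h hD ht1
    have ht1z : t₁ ≠ z := by
      rintro rfl
      have h1 := hz.act e₁ (e_mem_W h hD ht1).1
      rw [hD.t1e1] at h1
      exact hD.e1ne (eq_zero_of_eq_neg h1)
    obtain ⟨w, hw, hw1, hwz, hs⟩ := exists_w1 h hD ht1 hW hP hz hz1 ht1ne ht1z
    have hn := norm_in_Z h hD ht1 hW hz hz1 hw
    obtain ⟨e₁', e₂', e₃', hD'⟩ := fg_of_w (ρ := ρ) h hz hw.mem hs hn rfl hw1 hwz
    set n := w * (b * w * b⁻¹) * (b * (b * w * b⁻¹) * b⁻¹) with hnd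
    have hnA : AT R z n := by
      rcases hn with a | a
      · rw [a]
        exact ⟨R.one_mem, Or.inl (by simp), fun x _ => Or.inl (by group)⟩
      · rw [a]
        exact ⟨hz.mem, Or.inl hz.sq, fun x hx => Or.inl (by rw [← hz.cr x hx]; group)⟩
    have hnn : n * n = 1 := by
      rcases hn with a | a
      · rw [a]; simp
      · rw [a]; exact hz.sq
    have hninv : n⁻¹ = n := inv_eq_of_mul_eq_one_right hnn
    refine struct_b h hD' (R.mul_mem hw.mem hnA.mem) hW hP hz hz1 huniq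
      (AT.mul hz.cr hz.sq hw hnA) ?_ ?_
    · intro h0
      have h1 : w = n⁻¹ := eq_inv_of_mul_eq_one_left h0
      rw [hninv] at h1
      rcases hn with a | a
      · exact hw1 (h1.trans a)
      · exact hwz (h1.trans a)
    · intro h0
      have h1 : w = z * n⁻¹ := eq_mul_inv_of_mul_eq h0
      rw [hninv] at h1
      rcases hn with a | a
      · rw [a, mul_one] at h1
        exact hwz h1
      · rw [a, hz.sq] at h1
        exact hw1 h1

end Cfsg.Agent.Lib.CubM
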