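import Mathlib
import Cfsg.Agent.Lib.CubM

/-!
# Assembly: the commutator subgroup `[O_{3'}(S), B]`
-/

set_option autoImplicit false
set_option linter.unusedSectionVars false
set_option linter.unusedVariables false

namespace Cfsg.Agent.Lib.CubN

open Cfsg Cfsg.Agent.Lib.CubA Cfsg.Agent.Lib.CubB Cfsg.Agent.Lib.CubC Cfsg.Agent.Lib.CubC.Sett
  Cfsg.Agent.Lib.CubD Cfsg.Agent.Lib.CubE Cfsg.Agent.Lib.CubF Cfsg.Agent.Lib.CubG
  Cfsg.Agent.Lib.CubH Cfsg.Agent.Lib.CubI Cfsg.Agent.Lib.CubJ Cfsg.Agent.Lib.CubK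
  Cfsg.Agent.Lib.CubL Cfsg.Agent.Lib.CubM Cfsg.Agent.Lib.PCore
open scoped commutatorElement

variable {S : Type*} [Group S] {H B : Subgroup S} {b : S}

theorem nb_comm [hH : H.Normal] (hbB : b ∈ B) {r : S} (hr : r ∈ ⁅H, B⁆) : b * r * b⁻¹ ∈ ⁅H, B⁆ := by
  have hle : ⁅H, B⁆ ≤ ⁅H, B⁆.comap (MulAut.conj b).toMonoidHom := by
    rw [Subgroup.commutator_le]
    intro h hh c hc
    rw [Subgroup.mem_comap]
    show b * ⁅h, c⁆ * b⁻¹ ∈ ⁅H, B⁆
    have : b * ⁅h, c⁆ * b⁻¹ = ⁅b * h * b⁻¹, b * c * b⁻¹⁆ := by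
      simp only [commutatorElement_def]; group
    rw [this]
    exact Subgroup.commutator_mem_commutator (hH.conj_mem h hh b)
      (B.mul_mem (B.mul_mem hbB hc) (B.inv_mem hbB))
  exact hle hr

theorem norm_H [hH : H.Normal] {c r : S} (hc : c ∈ H) (hr : r ∈ ⁅H, B⁆) : c * r * c⁻¹ ∈ ⁅H, B⁆ := by
  have hle : ⁅H, B⁆ ≤ ⁅H, B⁆.comap (MulAut.conj c).toMonoidHom := by
    rw [Subgroup.commutator_le]
    intro h hh d hd
    rw [Subgroup.mem_comap]
    show c * ⁅h, d⁆ * c⁻¹ ∈ ⁅H, B⁆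
    have : c * ⁅h, d⁆ * c⁻¹ = ⁅c * h, d⁆ * ⁅c, d⁆⁻¹ := by
      simp only [commutatorElement_def]; group
    rw [this]
    exact Subgroup.mul_mem _ (Subgroup.commutator_mem_commutator (H.mul_mem hc hh) hd)
      (Subgroup.inv_mem _ (Subgroup.commutator_mem_commutator hc hd))
  exact hle hr

/-- Generation of the commutator subgroup by commutators with `b`. -/
theorem gen_comm [Finite S] [hH : H.Normal] (hb3 : b * b * b = 1) (hb : Subgroup.zpowers b = B)
    (hcop : ¬ 3 ∣ Nat.card (⁅H, B⁆ : Subgroup S)) (L : Subgroup S)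
    (hL : ∀ r ∈ ⁅H, B⁆, r * b * r⁻¹ * b⁻¹ ∈ L) : ⁅H, B⁆ ≤ L := by
  classical
  have hbB : b ∈ B := hb ▸ Subgroup.mem_zpowers b
  set R := ⁅H, B⁆ with hR
  -- commutators of elements of `H`
  have step1 : ∀ x ∈ H, x * b * x⁻¹ * b⁻¹ ∈ L := by
    intro x hx
    have hr₁ : x⁻¹ * b * x * b⁻¹ ∈ R := by
      have := Subgroup.commutator_mem_commutator (H.inv_mem hx) hbB
      simpa only [commutatorElement_def, inv_inv] using this
    let F : ↥R → ↥R := fun r => ⟨(x⁻¹ * b * x * b⁻¹) * (b * r * b⁻¹),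
      R.mul_mem hr₁ (nb_comm hbB r.2)⟩
    have hFv : ∀ r : ↥R, ((F r : ↥R) : S) = x⁻¹ * b * x * r * b⁻¹ := by
      intro r
      show (x⁻¹ * b * x * b⁻¹) * (b * (r : S) * b⁻¹) = _
      group
    have hF3 : ∀ r, F (F (F r)) = r := by
      intro r
      apply Subtype.ext
      rw [hFv, hFv, hFv]
      calc x⁻¹ * b * x * (x⁻¹ * b * x * (x⁻¹ * b * x * (r : S) * b⁻¹) * b⁻¹) * b⁻¹
          = x⁻¹ * (b * b * b) * x * r * (b * b * b)⁻¹ := by group
        _ = r := by rw [hb3]; group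
    have hfix : ∃ r, F r = r := by
      by_contra hno
      push Not at hno
      let _ := Fintype.ofFinite ↥R
      let F' : Function.End ↥R := F
      have hf : F' ^ 3 ^ 1 = 1 := by
        rw [pow_one, pow_succ, pow_two]
        funext r
        exact hF3 r
      have : Fact (Nat.Prime 3) := ⟨by norm_num⟩
      have hmod := Equiv.Perm.card_fixedPoints_modEq (p := 3) (n := 1) hf
      have hempty : Fintype.card (Function.fixedPoints F') = 0 := by
        rw [Fintype.card_eq_zero_iff]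
        constructor
        rintro ⟨r, hr⟩
        exact hno r hr
      rw [hempty] at hmod
      apply hcop
      rw [Nat.card_eq_fintype_card]
      exact (Nat.modEq_zero_iff_dvd).mp hmod
    obtain ⟨r₀, hr₀⟩ := hfix
    have hr₀v : x⁻¹ * b * x * (r₀ : S) * b⁻¹ = r₀ := by
      rw [← hFv, hr₀]
    set c := x * (r₀ : S) with hc
    have hcb : b * c * b⁻¹ = c := by
      rw [hc]
      calc b * (x * (r₀ : S)) * b⁻¹ = x * (x⁻¹ * b * x * (r₀ : S) * b⁻¹) := by group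
        _ = x * r₀ := by rw [hr₀v]
    have hRH : R ≤ H := Subgroup.commutator_le_left H B
    have hcH : c ∈ H := H.mul_mem hx (hRH r₀.2)
    have hcb' : c⁻¹ * b * c = b := by
      rw [mul_inv_eq_iff_eq_mul] at hcb
      rw [mul_assoc, hcb]; group
    have hx' : x = c * (r₀ : S)⁻¹ := by rw [hc]; group
    have hr' : c * (r₀ : S)⁻¹ * c⁻¹ ∈ R := norm_H hcH (R.inv_mem r₀.2)
    have h2 := hL _ hr'
    have h3 : x * b * x⁻¹ * b⁻¹ = (c * (r₀ : S)⁻¹ * c⁻¹) * b * (c * (r₀ : S)⁻¹ * c⁻¹)⁻¹ * b⁻¹ := by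
      rw [hx']
      calc c * (r₀ : S)⁻¹ * b * (c * (r₀ : S)⁻¹)⁻¹ * b⁻¹
          = c * (r₀ : S)⁻¹ * (c⁻¹ * b * c) * (r₀ : S) * c⁻¹ * b⁻¹ := by
            rw [hcb']; group
        _ = _ := by group
    rw [h3]
    exact h2
  -- powers of `b`
  have step2 : ∀ (n : ℕ), ∀ x ∈ H, x * b ^ n * x⁻¹ * (b ^ n)⁻¹ ∈ L := by
    intro n
    induction n with
    | zero =>
      intro x _
      have : x * b ^ 0 * x⁻¹ * (b ^ 0)⁻¹ = 1 := by simp
      rw [this]
      exact L.one_mem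
    | succ n ih =>
      intro x hx
      set y := b ^ n with hy
      have hyb : y * b = b * y := by
        rw [hy]
        exact (Commute.pow_self b n)
      have hpow : b ^ (n + 1) = y * b := by rw [hy, pow_succ]
      rw [hpow]
      have hx' : y * x * y⁻¹ ∈ H := hH.conj_mem x hx y
      have h1 := step1 _ hx'
      have h2 := ih x hx
      have h3 : y⁻¹ * b * y = b := by
        rw [mul_assoc, ← hyb]; group
      have h4 : x * (y * b) * x⁻¹ * (y * b)⁻¹ =
          (x * y * x⁻¹ * y⁻¹) * ((y * x * y⁻¹) * b * (y * x * y⁻¹)⁻¹ * b⁻¹) := by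
        have h5 : (y * x * y⁻¹) * b * (y * x * y⁻¹)⁻¹ * b⁻¹ =
            y * x * (y⁻¹ * b * y) * x⁻¹ * y⁻¹ * b⁻¹ := by group
        rw [h5, h3]
        have h6 : y⁻¹ * b⁻¹ = b⁻¹ * y⁻¹ := by
          have := congrArg (fun u => u⁻¹) hyb
          simpa using this.symm
        calc x * (y * b) * x⁻¹ * (y * b)⁻¹ = x * y * b * x⁻¹ * (b⁻¹ * y⁻¹) := by group
          _ = x * y * b * x⁻¹ * (y⁻¹ * b⁻¹) := by rw [h6]
          _ = _ := by group
      rw [h4]
      exact L.mul_mem h2 h1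
  rw [hR, Subgroup.commutator_le]
  intro g hg c hc
  rw [← hb] at hc
  rw [mem_zpowers_iff_mem_range_orderOf, Finset.mem_image] at hc
  obtain ⟨n, -, rfl⟩ := hc
  have := step2 n g hg
  simpa only [commutatorElement_def] using this

/-- The rank bound. -/
theorem rank_le {E : Type*} [AddCommGroup E] [Module (ZMod 3) E] [Finite E]
    (ρ : Representation (ZMod 3) S E) (hb3 : b * b * b = 1) {E₀ E₁ : Submodule (ZMod 3) E}
    (hE01' : E₀ ⊔ E₁ = ⊤) (hE1 : ∀ v ∈ E₁, ρ b v = v) (hE0inv : ∀ v ∈ E₀, ρ b v ∈ E₀)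
    (hE0 : Nat.card ↥E₀ = 27) (hind : ∃ v ∈ E₀, ρ b (ρ b v - v) - (ρ b v - v) ≠ 0) :
    Nat.card (LinearMap.range (ρ b - 1)) ≤ 9 := by
  classical
  let θ : E →ₗ[ZMod 3] E := ρ b - 1
  have hθ : ∀ v, θ v = ρ b v - v := fun v => rfl
  have hs : ∀ y : LinearMap.range θ, ∃ s ∈ E₀, θ s = y := by
    rintro ⟨y, x, rfl⟩
    have hx : x ∈ E₀ ⊔ E₁ := by rw [hE01']; trivial
    obtain ⟨v₀, h0, v₁, h1, rfl⟩ := Submodule.mem_sup.mp hx
    refine ⟨v₀, h0, ?_⟩
    show θ v₀ = θ (v₀ + v₁)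
    rw [map_add, hθ v₁, hE1 v₁ h1, sub_self, add_zero]
  choose s hs0 hsθ using hs
  obtain ⟨v, hv, hvne⟩ := hind
  set k := ρ b (ρ b v - v) - (ρ b v - v) with hk
  have hkE : k ∈ E₀ :=
    E₀.sub_mem (hE0inv _ (E₀.sub_mem (hE0inv v hv) hv)) (E₀.sub_mem (hE0inv v hv) hv)
  have hkθ : θ k = 0 := by
    rw [hθ, hk]
    simp only [map_sub]
    have h1 : ρ b (ρ b (ρ b v)) = v := by
      rw [← act_mul, ← act_mul, hb3, act_one]
    rw [h1]
    have h2 : v - ρ b (ρ b v) - (ρ b (ρ b v) - ρ b v) - (ρ b (ρ b v) - ρ b v - (ρ b v - v)) =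
        (ρ b v + ρ b v + ρ b v) - (ρ b (ρ b v) + ρ b (ρ b v) + ρ b (ρ b v)) := by abel
    rw [h2, three_add, three_add, sub_zero]
  let ψ : LinearMap.range θ × ZMod 3 → E₀ := fun p =>
    ⟨s p.1 + p.2 • k, E₀.add_mem (hs0 _) (E₀.smul_mem _ hkE)⟩
  have hinj : Function.Injective ψ := by
    rintro ⟨y, a⟩ ⟨y', a'⟩ hh
    have h0 : s y + a • k = s y' + a' • k := congrArg Subtype.val hh
    have h1 := congrArg θ h0
    simp only [map_add, map_smul, hkθ, smul_zero, add_zero, hsθ] at h1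
    have hy : y = y' := Subtype.ext h1
    subst hy
    have h2 : a = a' := eq_of_smul_eq hvne (add_left_cancel h0)
    subst h2
    rfl
  have h1 := Nat.card_le_card_of_injective ψ hinj
  rw [Nat.card_prod, Nat.card_zmod, hE0] at h1
  show Nat.card (LinearMap.range θ) ≤ 9
  omega

/-- The element `b` maps into the `3`-core of the quotient by the `3'`-core. -/
theorem b_mem_core [Finite S] [Group.IsSolvable S] (P : Sylow 3 S)
    (hBZ : (Subgroup.center ↥(P : Subgroup S)).map (P : Subgroup S).subtype = B)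
    (hb : Subgroup.zpowers b = B) (hord : orderOf b = 3) :
    ((b : S) : S ⧸ pPrimeCore 3 S) ∈ pCore 3 (S ⧸ pPrimeCore 3 S) := by
  classical
  have hF3 : Fact (Nat.Prime 3) := ⟨by norm_num⟩
  set N := pPrimeCore 3 S with hN
  have hcore : pPrimeCore 3 (S ⧸ N) = ⊥ := pPrimeCore_quotient_pPrimeCore 3
  let π : S →* S ⧸ N := QuotientGroup.mk' N
  have hπ : Function.Surjective π := QuotientGroup.mk'_surjective N
  have hne : pCore 3 (S ⧸ N) ≠ ⊥ := by
    intro h0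
    have h1 := centralizer_pCore_le (G := S ⧸ N) 3 hcore
    rw [h0] at h1
    have h2 : ((b : S) : S ⧸ N) ∈ Subgroup.centralizer (((⊥ : Subgroup (S ⧸ N))) : Set (S ⧸ N)) := by
      rw [Subgroup.mem_centralizer_iff]
      intro y hy
      have : y = 1 := hy
      rw [this]; simp
    have h3 := h1 h2
    rw [Subgroup.mem_bot] at h3
    have h4 : b ∈ N := (QuotientGroup.eq_one_iff b).mp h3
    have h5 : orderOf (⟨b, h4⟩ : N) ∣ Nat.card N := orderOf_dvd_natCard _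
    have h6 : orderOf (⟨b, h4⟩ : N) = orderOf b := Subgroup.orderOf_mk b h4
    rw [h6, hord] at h5
    exact not_dvd_card_pPrimeCore 3 h5
  obtain ⟨x, hx, hx1⟩ := Cfsg.Agent.Lib.BrolineGT.exists_mem_ne_one hne
  have hxP := pCore_le_sylow 3 (P.mapSurjective hπ) hx
  rw [Sylow.coe_mapSurjective] at hxP
  obtain ⟨p, hp, rfl⟩ := hxP
  let K : Subgroup S := (pCore 3 (S ⧸ N)).comap π
  have hKn : K.Normal := Subgroup.Normal.comap inferInstance π
  let D : Subgroup ↥(P : Subgroup S) := K.subgroupOf (P : Subgroup S)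
  have hDn : D.Normal := Subgroup.Normal.subgroupOf hKn _
  have hDne : D ≠ ⊥ := by
    intro h0
    have h1 : (⟨p, hp⟩ : ↥(P : Subgroup S)) ∈ D := by
      show p ∈ K
      exact hx
    rw [h0, Subgroup.mem_bot] at h1
    apply hx1
    have h2 : p = 1 := congrArg Subtype.val h1
    rw [h2, map_one]
  have hnil : Group.IsNilpotent ↥(P : Subgroup S) := P.isPGroup'.isNilpotent
  have hcap := Cfsg.Agent.Lib.BrolineGT.inf_center_ne_bot D hDne
  obtain ⟨y, hy, hy1⟩ := Cfsg.Agent.Lib.BrolineGT.exists_mem_ne_one hcap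
  have hyK : (y : S) ∈ K := hy.1
  have hyB : (y : S) ∈ B := by
    rw [← hBZ]
    exact ⟨y, hy.2, rfl⟩
  rw [← hb, mem_zpowers_iff_mem_range_orderOf, Finset.mem_image] at hyB
  obtain ⟨n, hn, hny⟩ := hyB
  rw [hord, Finset.mem_range] at hn
  have hy1' : (y : S) ≠ 1 := fun h0 => hy1 (Subtype.ext h0)
  have hbK : b ∈ K := by
    have hb3 : b ^ 3 = 1 := by rw [← hord]; exact pow_orderOf_eq_one b
    interval_cases n
    · exfalso
      apply hy1'
      rw [← hny]; simp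
    · have : (y : S) = b := by rw [← hny]; simp
      rw [← this]; exact hyK
    · have h1 : (y : S) * (y : S) = b := by
        rw [← hny]
        calc b ^ 2 * b ^ 2 = b ^ 3 * b := by group
          _ = b := by rw [hb3, one_mul]
      rw [← h1]
      exact K.mul_mem hyK hyK
  exact hbK

end Cfsg.Agent.Lib.CubN
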