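import Mathlib

/-!
# Fourier analysis on `ZMod n` for blocks with cyclic defect

Arithmetic consequences of block orthogonality relations for the values on a cyclic Sylow subgroup,
indexed by `ZMod n`.
-/

set_option autoImplicit false
set_option linter.unusedSectionVars false
set_option linter.unusedVariables false

open scoped ComplexConjugate

namespace Cfsg.Agent.Lib.CycArith

variable {n : ℕ} [NeZero n]

/-- The standard additive character. -/
noncomputable def ee (x : ZMod n) : ℂ := ZMod.stdAddChar x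

theorem ee_add (x y : ZMod n) : ee (x + y) = ee x * ee y := AddChar.map_add_eq_mul _ x y

theorem ee_zero : ee (0 : ZMod n) = 1 := AddChar.map_zero_eq_one _

theorem conj_ee (x : ZMod n) : conj (ee x) = ee (-x) := (AddChar.map_neg_eq_conj _ x).symm

theorem norm_ee (x : ZMod n) : ‖ee x‖ = 1 := by
  unfold ee
  rw [ZMod.stdAddChar_apply]
  exact Circle.norm_coe _

theorem sum_ee (r : ZMod n) : ∑ i : ZMod n, ee (i * r) = if r = 0 then (n : ℂ) else 0 := by
  have h := AddChar.sum_mulShift (R := ZMod n) (R' := ℂ) (ψ := ZMod.stdAddChar) r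
    (ZMod.isPrimitive_stdAddChar n)
  unfold ee
  rw [h, ZMod.card]
  split_ifs <;> simp

theorem sum_ee_neg (r : ZMod n) : ∑ i : ZMod n, ee (-(i * r)) = if r = 0 then (n : ℂ) else 0 := by
  have h := sum_ee (-r)
  simp only [mul_neg, neg_eq_zero] at h
  exact h

theorem card_eq : (Finset.univ : Finset (ZMod n)).card = n := by
  rw [Finset.card_univ, ZMod.card]

/-- The basic double sum. -/
theorem four (r s : ZMod n) (hr : r ≠ 0) (hs : s ≠ 0) :
    ∑ i : ZMod n, (ee (-(i * r)) - 1) * (ee (i * s) - 1) =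
      (n : ℂ) * ((if s = r then 1 else 0) + 1) := by
  have h1 : ∀ i : ZMod n, (ee (-(i * r)) - 1) * (ee (i * s) - 1) =
      ee (i * (s - r)) - ee (-(i * r)) - ee (i * s) + 1 := by
    intro i
    have : ee (i * (s - r)) = ee (i * s) * ee (-(i * r)) := by
      rw [← ee_add]; congr 1; ring
    rw [this]; ring
  simp only [h1]
  rw [Finset.sum_add_distrib, Finset.sum_sub_distrib, Finset.sum_sub_distrib, sum_ee, sum_ee_neg,
    sum_ee, if_neg hr, if_neg hs]
  simp only [Finset.sum_const, card_eq, nsmul_eq_mul, mul_one, sub_eq_zero]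
  split_ifs <;> ring

/-- The mean of `ee (-(i * r)) - 1`. -/
theorem sum_sub_one (r : ZMod n) (hr : r ≠ 0) : ∑ i : ZMod n, (ee (-(i * r)) - 1) = -(n : ℂ) := by
  rw [Finset.sum_sub_distrib, sum_ee_neg, if_neg hr]
  simp

/-- The multiplier set. -/
structure WData (W : Finset (ZMod n)) : Prop where
  one_mem : (1 : ZMod n) ∈ W
  mul_mem : ∀ k ∈ W, ∀ k' ∈ W, k * k' ∈ W
  inj : ∀ k ∈ W, ∀ x y : ZMod n, k * x = k * y → x = y
  free : ∀ k ∈ W, ∀ i : ZMod n, i ≠ 0 → k * i = i → k = 1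

namespace WData

variable {W : Finset (ZMod n)} (hW : WData W)

include hW

theorem image_mul {k₀ : ZMod n} (h : k₀ ∈ W) : W.image (fun k => k₀ * k) = W := by
  apply Finset.eq_of_subset_of_card_le
  · intro x hx
    obtain ⟨k, hk, rfl⟩ := Finset.mem_image.mp hx
    exact hW.mul_mem _ h _ hk
  · rw [Finset.card_image_of_injective _ (fun x y hxy => hW.inj k₀ h x y hxy)]

theorem sum_mul_left {β : Type*} [AddCommMonoid β] {k₀ : ZMod n} (h : k₀ ∈ W) (F : ZMod n → β) :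
    ∑ k ∈ W, F (k₀ * k) = ∑ k ∈ W, F k := by
  conv_rhs => rw [← hW.image_mul h]
  rw [Finset.sum_image (fun x _ y _ hxy => hW.inj k₀ h x y hxy)]

theorem sum_all_mul {β : Type*} [AddCommMonoid β] {k₀ : ZMod n} (h : k₀ ∈ W) (F : ZMod n → β) :
    ∑ i : ZMod n, F (k₀ * i) = ∑ i : ZMod n, F i := by
  have hb : Function.Bijective (fun i : ZMod n => k₀ * i) :=
    Finite.injective_iff_bijective.mp (fun x y hxy => hW.inj k₀ h x y hxy)
  exact hb.sum_comp F

theorem exists_inv {k : ZMod n} (h : k ∈ W) : ∃ k' ∈ W, k' * k = 1 := by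
  have h1 : (1 : ZMod n) ∈ W.image (fun x => k * x) := by
    rw [hW.image_mul h]; exact hW.one_mem
  obtain ⟨k', hk', e⟩ := Finset.mem_image.mp h1
  exact ⟨k', hk', by rw [mul_comm]; exact e⟩

theorem ne_zero_mul {k : ZMod n} (h : k ∈ W) {i : ZMod n} (hi : i ≠ 0) : k * i ≠ 0 := by
  intro h0
  apply hi
  apply hW.inj k h
  rw [h0, mul_zero]

theorem inj_right {i : ZMod n} (hi : i ≠ 0) {k k' : ZMod n} (h : k ∈ W) (h' : k' ∈ W)
    (e : k * i = k' * i) : k = k' := by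
  obtain ⟨l, hl, hlk⟩ := hW.exists_inv h
  have h1 : (l * k') * i = i := by
    rw [mul_assoc, ← e, ← mul_assoc, hlk, one_mul]
  have h2 := hW.free _ (hW.mul_mem l hl k' h') i hi h1
  calc k = k * (l * k') := by rw [h2, mul_one]
    _ = (l * k) * k' := by ring
    _ = k' := by rw [hlk, one_mul]

theorem sum_image_right {β : Type*} [AddCommMonoid β] {i : ZMod n} (hi : i ≠ 0) (g : ZMod n → β) :
    ∑ x ∈ W.image (fun k => k * i), g x = ∑ k ∈ W, g (k * i) := by
  rw [Finset.sum_image (fun x hx y hy hxy => hW.inj_right hi hx hy hxy)]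

theorem card_image_right {i : ZMod n} (hi : i ≠ 0) : (W.image (fun k => k * i)).card = W.card :=
  Finset.card_image_of_injOn (fun x hx y hy hxy => hW.inj_right hi hx hy hxy)

/-- The number of multipliers carrying `j'` to `j`. -/
theorem card_filter_mul {j j' : ZMod n} (hj' : j' ≠ 0) :
    (∑ k ∈ W, if k * j' = j then (1 : ℂ) else 0) = if j ∈ W.image (fun k => k * j') then 1 else 0 := by
  split_ifs with h
  · obtain ⟨k₀, hk₀, rfl⟩ := Finset.mem_image.mp h
    rw [Finset.sum_eq_single k₀]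
    · simp
    · intro b hb hne
      rw [if_neg]
      intro e
      exact hne (hW.inj_right hj' hb hk₀ e)
    · exact fun h' => absurd hk₀ h'
  · apply Finset.sum_eq_zero
    intro k hk
    rw [if_neg]
    intro e
    exact h (Finset.mem_image.mpr ⟨k, hk, e⟩)

end WData

/-- The periods. -/
noncomputable def LL (W : Finset (ZMod n)) (j i : ZMod n) : ℂ := ∑ k ∈ W, ee (k * i * j)

theorem sum_sub_one_W (W : Finset (ZMod n)) (j i : ZMod n) :
    ∑ k ∈ W, (ee (k * i * j) - 1) = LL W j i - W.card := by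
  rw [Finset.sum_sub_distrib]
  simp [LL]

/-- The target of the cubic relation. -/
noncomputable def FF (W : Finset (ZMod n)) (u i : ZMod n) : ℂ :=
  if u ≠ 0 ∧ i ∈ W.image (fun k => k * u) then (n : ℂ) else 0

theorem sum_FF {W : Finset (ZMod n)} (hW : WData W) (u j : ZMod n) :
    ∑ i : ZMod n, (ee (i * j) - 1) * FF W u i = (n : ℂ) * ∑ k ∈ W, (ee (k * u * j) - 1) := by
  by_cases hu : u = 0
  · subst hu
    have h : ∀ i, FF W (0 : ZMod n) i = 0 := by
      intro i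
      unfold FF
      simp
    simp only [h, mul_zero, Finset.sum_const_zero, zero_mul, ee_zero, sub_self]
  · have h : ∀ i, (ee (i * j) - 1) * FF W u i =
        if i ∈ W.image (fun k => k * u) then (n : ℂ) * (ee (i * j) - 1) else 0 := by
      intro i
      unfold FF
      by_cases hi : i ∈ W.image (fun k => k * u)
      · rw [if_pos ⟨hu, hi⟩, if_pos hi]; ring
      · rw [if_neg (fun h => hi h.2), if_neg hi, mul_zero]
    simp only [h]
    rw [Finset.sum_ite_mem, Finset.univ_inter, ← Finset.mul_sum, hW.sum_image_right hu]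

/-- Block data on a cyclic Sylow subgroup. -/
structure BD (p n : ℕ) [NeZero n] (W : Finset (ZMod n)) (ι : Type*) where
  B : Finset ι
  x₀ : ι
  f : ι → ZMod n → ℂ
  d : ι → ℕ
  μ : ι → ZMod n → ℕ
  x₀_mem : x₀ ∈ B
  f_expand : ∀ χ i, f χ i = ∑ j, (μ χ j : ℂ) * ee (i * j)
  f_zero : ∀ χ, f χ 0 = d χ
  d_pos : ∀ χ ∈ B, 0 < d χ
  f_inv : ∀ χ, ∀ k ∈ W, ∀ i, f χ (k * i) = f χ i
  μ_base : ∀ j, μ x₀ j = if j = 0 then 1 else 0
  orth : ∀ i i', i ≠ 0 → i' ≠ 0 → ∑ χ ∈ B, f χ i * conj (f χ i') = FF W i i'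
  orth_deg : ∀ i, i ≠ 0 → ∑ χ ∈ B, (d χ : ℂ) * conj (f χ i) = 0
  cubic : ∀ a b i', (p : ZMod n) * a = 0 → (p : ZMod n) * b = 0 → a ≠ 0 → b ≠ 0 → i' ≠ 0 →
    (W.card : ℂ) * ∑ χ ∈ B, f χ a * f χ b * conj (f χ i') / d χ = ∑ k ∈ W, FF W (a + k * b) i'
  ker : ∀ χ ∈ B, χ ≠ x₀ → ∀ i, i ≠ 0 → f χ i ≠ d χ

namespace BD

variable {p : ℕ} {W : Finset (ZMod n)} {ι : Type*} (D : BD p n W ι)

theorem n_ne_zero : (n : ℂ) ≠ 0 := by
  have : n ≠ 0 := NeZero.ne n
  exact_mod_cast this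

/-- Fourier inversion. -/
theorem sum_f_ee (χ : ι) (r : ZMod n) :
    ∑ i : ZMod n, D.f χ i * ee (-(i * r)) = (n : ℂ) * D.μ χ r := by
  simp only [D.f_expand, Finset.sum_mul]
  rw [Finset.sum_comm]
  have h : ∀ j : ZMod n, ∑ i : ZMod n, (D.μ χ j : ℂ) * ee (i * j) * ee (-(i * r)) =
      (D.μ χ j : ℂ) * (if j - r = 0 then (n : ℂ) else 0) := by
    intro j
    rw [← sum_ee (j - r), Finset.mul_sum]
    refine Finset.sum_congr rfl fun i _ => ?_
    rw [mul_assoc, ← ee_add]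
    congr 2
    ring
  simp only [h]
  rw [Finset.sum_eq_single r]
  · simp
    ring
  · intro b _ hb
    rw [if_neg (sub_ne_zero.mpr hb), mul_zero]
  · exact fun h' => absurd (Finset.mem_univ _) h'

/-- The integer `m_j - m_0`. -/
def τ (χ : ι) (j : ZMod n) : ℤ := (D.μ χ j : ℤ) - D.μ χ 0

theorem tau_formula (χ : ι) (j : ZMod n) :
    ∑ i : ZMod n, D.f χ i * (ee (-(i * j)) - 1) = (n : ℂ) * (D.τ χ j : ℂ) := by
  have h0 := D.sum_f_ee χ 0
  have h1 := D.sum_f_ee χ j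
  simp only [mul_zero, neg_zero, ee_zero, mul_one] at h0
  simp only [mul_sub, mul_one, Finset.sum_sub_distrib]
  rw [h1, h0]
  unfold τ
  push_cast
  ring

theorem tau_formula' (χ : ι) (j : ZMod n) :
    ∑ i : ZMod n, conj (D.f χ i) * (ee (i * j) - 1) = (n : ℂ) * (D.τ χ j : ℂ) := by
  have h := congrArg conj (D.tau_formula χ j)
  simp only [map_sum, map_mul, map_sub, map_one, conj_ee, neg_neg, map_natCast, map_intCast] at h
  exact h

theorem mu_inv (hW : WData W) (χ : ι) {k : ZMod n} (hk : k ∈ W) (j : ZMod n) :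
    D.μ χ (k * j) = D.μ χ j := by
  have h1 := D.sum_f_ee χ (k * j)
  have h2 := D.sum_f_ee χ j
  have h3 : ∑ i : ZMod n, D.f χ i * ee (-(i * (k * j))) = ∑ i : ZMod n, D.f χ i * ee (-(i * j)) := by
    rw [← hW.sum_all_mul hk (fun i => D.f χ i * ee (-(i * j)))]
    refine Finset.sum_congr rfl fun i _ => ?_
    rw [D.f_inv χ k hk i]
    congr 3
    ring
  rw [h1, h2] at h3
  have h4 := mul_left_cancel₀ n_ne_zero h3
  exact_mod_cast h4

theorem tau_inv (hW : WData W) (χ : ι) {k : ZMod n} (hk : k ∈ W) (j : ZMod n) :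
    D.τ χ (k * j) = D.τ χ j := by
  unfold τ
  rw [D.mu_inv hW χ hk]

theorem tau_zero (χ : ι) : D.τ χ 0 = 0 := by
  unfold τ
  ring

theorem f_tau (χ : ι) (i : ZMod n) (hi : i ≠ 0) :
    D.f χ i = ∑ j : ZMod n, (D.τ χ j : ℂ) * ee (i * j) := by
  have h0 : ∑ j : ZMod n, ee (i * j) = 0 := by
    have := sum_ee i
    rw [if_neg hi] at this
    rw [← this]
    refine Finset.sum_congr rfl fun j _ => ?_
    rw [mul_comm]
  have h1 : ∀ j : ZMod n, (D.τ χ j : ℂ) * ee (i * j) =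
      (D.μ χ j : ℂ) * ee (i * j) - (D.μ χ 0 : ℂ) * ee (i * j) := by
    intro j
    unfold τ
    push_cast
    ring
  simp only [h1]
  rw [Finset.sum_sub_distrib, ← Finset.mul_sum, h0, mul_zero, sub_zero, D.f_expand]

theorem tau_base (j : ZMod n) (hj : j ≠ 0) : D.τ D.x₀ j = -1 := by
  unfold τ
  rw [D.μ_base, D.μ_base, if_neg hj, if_pos rfl]
  norm_num

theorem f_base (i : ZMod n) : D.f D.x₀ i = 1 := by
  rw [D.f_expand, Finset.sum_eq_single 0]
  · rw [D.μ_base, if_pos rfl, mul_zero, ee_zero]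
    simp
  · intro b _ hb
    rw [D.μ_base, if_neg hb]
    simp
  · exact fun h' => absurd (Finset.mem_univ _) h'

theorem d_base : D.d D.x₀ = 1 := by
  have h := D.f_zero D.x₀
  rw [f_base] at h
  exact_mod_cast h.symm

/-- The degree. -/
theorem d_eq_sum (χ : ι) : (D.d χ : ℂ) = ∑ j, (D.μ χ j : ℂ) := by
  rw [← D.f_zero, D.f_expand]
  simp [ee_zero]

/-- Orthogonality summed. -/
theorem orth_sum (hW : WData W) {i : ZMod n} (hi : i ≠ 0) (j : ZMod n) :
    ∑ i' : ZMod n, (ee (i' * j) - 1) * ∑ χ ∈ D.B, D.f χ i * conj (D.f χ i') =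
      (n : ℂ) * ∑ k ∈ W, (ee (k * i * j) - 1) := by
  rw [← sum_FF hW]
  refine Finset.sum_congr rfl fun i' _ => ?_
  by_cases hi' : i' = 0
  · subst hi'
    simp [ee_zero]
  · rw [D.orth i i' hi hi']

/-- Linear relation. -/
theorem G3 (hW : WData W) {a : ZMod n} (ha : a ≠ 0) (j : ZMod n) :
    ∑ χ ∈ D.B, (D.τ χ j : ℂ) * D.f χ a = ∑ k ∈ W, (ee (k * a * j) - 1) := by
  apply mul_left_cancel₀ (n_ne_zero (n := n))
  rw [← D.orth_sum hW ha j, Finset.mul_sum]
  have h : ∀ χ ∈ D.B, (n : ℂ) * ((D.τ χ j : ℂ) * D.f χ a) =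
      ∑ i' : ZMod n, (ee (i' * j) - 1) * (D.f χ a * conj (D.f χ i')) := by
    intro χ _
    rw [← mul_assoc, ← D.tau_formula' χ j, Finset.sum_mul]
    refine Finset.sum_congr rfl fun i' _ => ?_
    ring
  rw [Finset.sum_congr rfl h, Finset.sum_comm]
  refine Finset.sum_congr rfl fun i' _ => ?_
  rw [Finset.mul_sum]

/-- The Gram relation. -/
theorem G1_complex (hW : WData W) {j j' : ZMod n} (hj : j ≠ 0) (hj' : j' ≠ 0) :
    ∑ χ ∈ D.B, (D.τ χ j : ℂ) * (D.τ χ j' : ℂ) =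
      (W.card : ℂ) + if j ∈ W.image (fun k => k * j') then 1 else 0 := by
  apply mul_left_cancel₀ (n_ne_zero (n := n))
  have h1 : (n : ℂ) * ∑ χ ∈ D.B, (D.τ χ j : ℂ) * (D.τ χ j' : ℂ) =
      ∑ i : ZMod n, (ee (-(i * j)) - 1) * ∑ k ∈ W, (ee (k * i * j') - 1) := by
    rw [Finset.mul_sum]
    have h : ∀ χ ∈ D.B, (n : ℂ) * ((D.τ χ j : ℂ) * (D.τ χ j' : ℂ)) =
        ∑ i : ZMod n, (ee (-(i * j)) - 1) * ((D.τ χ j' : ℂ) * D.f χ i) := by
      intro χ _
      rw [← mul_assoc, ← D.tau_formula χ j, Finset.sum_mul]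
      refine Finset.sum_congr rfl fun i _ => ?_
      ring
    rw [Finset.sum_congr rfl h, Finset.sum_comm]
    refine Finset.sum_congr rfl fun i _ => ?_
    rw [← Finset.mul_sum]
    by_cases hi : i = 0
    · subst hi
      simp [ee_zero]
    · rw [D.G3 hW hi j']
  rw [h1]
  have h2 : ∑ i : ZMod n, (ee (-(i * j)) - 1) * ∑ k ∈ W, (ee (k * i * j') - 1) =
      ∑ k ∈ W, ∑ i : ZMod n, (ee (-(i * j)) - 1) * (ee (i * (k * j')) - 1) := by
    simp only [Finset.mul_sum]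
    rw [Finset.sum_comm]
    refine Finset.sum_congr rfl fun k _ => Finset.sum_congr rfl fun i _ => ?_
    congr 3
    ring
  rw [h2]
  have h3 : ∀ k ∈ W, ∑ i : ZMod n, (ee (-(i * j)) - 1) * (ee (i * (k * j')) - 1) =
      (n : ℂ) * ((if k * j' = j then 1 else 0) + 1) := fun k hk =>
    four j (k * j') hj (hW.ne_zero_mul hk hj')
  rw [Finset.sum_congr rfl h3, ← Finset.mul_sum, Finset.sum_add_distrib, hW.card_filter_mul hj']
  simp only [Finset.sum_const, nsmul_eq_mul, mul_one]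
  ring

theorem G1 (hW : WData W) {j j' : ZMod n} (hj : j ≠ 0) (hj' : j' ≠ 0) :
    ∑ χ ∈ D.B, D.τ χ j * D.τ χ j' =
      (W.card : ℤ) + if j ∈ W.image (fun k => k * j') then 1 else 0 := by
  have h := D.G1_complex hW hj hj'
  have h2 : ((∑ χ ∈ D.B, D.τ χ j * D.τ χ j' : ℤ) : ℂ) =
      (((W.card : ℤ) + if j ∈ W.image (fun k => k * j') then 1 else 0 : ℤ) : ℂ) := by
    push_cast
    rw [h]
  exact_mod_cast h2

/-- Orthogonality to the degrees. -/
theorem G2_complex {j : ZMod n} : ∑ χ ∈ D.B, (D.τ χ j : ℂ) * (D.d χ : ℂ) = 0 := by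
  apply mul_left_cancel₀ (n_ne_zero (n := n))
  rw [Finset.mul_sum, mul_zero]
  have h : ∀ χ ∈ D.B, (n : ℂ) * ((D.τ χ j : ℂ) * (D.d χ : ℂ)) =
      ∑ i : ZMod n, (ee (i * j) - 1) * ((D.d χ : ℂ) * conj (D.f χ i)) := by
    intro χ _
    rw [← mul_assoc, ← D.tau_formula' χ j, Finset.sum_mul]
    refine Finset.sum_congr rfl fun i _ => ?_
    ring
  rw [Finset.sum_congr rfl h, Finset.sum_comm]
  apply Finset.sum_eq_zero
  intro i _
  rw [← Finset.mul_sum]
  by_cases hi : i = 0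
  · subst hi
    simp [ee_zero]
  · rw [D.orth_deg i hi, mul_zero]

theorem G2 {j : ZMod n} : ∑ χ ∈ D.B, D.τ χ j * (D.d χ : ℤ) = 0 := by
  have h := D.G2_complex (j := j)
  have h2 : ((∑ χ ∈ D.B, D.τ χ j * (D.d χ : ℤ) : ℤ) : ℂ) = ((0 : ℤ) : ℂ) := by
    push_cast
    rw [h]
  exact_mod_cast h2

/-- The cubic relation. -/
theorem C1 (hW : WData W) {a b : ZMod n} (ha : (p : ZMod n) * a = 0) (hb : (p : ZMod n) * b = 0)
    (ha0 : a ≠ 0) (hb0 : b ≠ 0) (j : ZMod n) :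
    (W.card : ℂ) * ∑ χ ∈ D.B, D.f χ a * D.f χ b * (D.τ χ j : ℂ) / (D.d χ : ℂ) =
      LL W j a * LL W j b - (W.card : ℂ) ^ 2 := by
  apply mul_left_cancel₀ (n_ne_zero (n := n))
  have h1 : (n : ℂ) * ((W.card : ℂ) * ∑ χ ∈ D.B, D.f χ a * D.f χ b * (D.τ χ j : ℂ) / (D.d χ : ℂ)) =
      ∑ i : ZMod n, (ee (i * j) - 1) *
        ((W.card : ℂ) * ∑ χ ∈ D.B, D.f χ a * D.f χ b * conj (D.f χ i) / (D.d χ : ℂ)) := by
    rw [mul_left_comm, Finset.mul_sum]
    have h : ∀ χ ∈ D.B, (n : ℂ) * (D.f χ a * D.f χ b * (D.τ χ j : ℂ) / (D.d χ : ℂ)) =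
        ∑ i : ZMod n, (ee (i * j) - 1) * (D.f χ a * D.f χ b * conj (D.f χ i) / (D.d χ : ℂ)) := by
      intro χ _
      have e1 : (n : ℂ) * (D.f χ a * D.f χ b * (D.τ χ j : ℂ) / (D.d χ : ℂ)) =
          ((n : ℂ) * (D.τ χ j : ℂ)) * (D.f χ a * D.f χ b / (D.d χ : ℂ)) := by ring
      rw [e1, ← D.tau_formula' χ j, Finset.sum_mul]
      refine Finset.sum_congr rfl fun i _ => ?_
      ring
    rw [Finset.sum_congr rfl h, Finset.sum_comm, Finset.mul_sum]
    refine Finset.sum_congr rfl fun i _ => ?_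
    rw [← Finset.mul_sum]
    ring
  rw [h1]
  have h2 : ∀ i : ZMod n, (ee (i * j) - 1) *
        ((W.card : ℂ) * ∑ χ ∈ D.B, D.f χ a * D.f χ b * conj (D.f χ i) / (D.d χ : ℂ)) =
      ∑ k ∈ W, (ee (i * j) - 1) * FF W (a + k * b) i := by
    intro i
    by_cases hi : i = 0
    · subst hi
      simp [ee_zero]
    · rw [D.cubic a b i ha hb ha0 hb0 hi, Finset.mul_sum]
  simp only [h2]
  rw [Finset.sum_comm]
  simp only [sum_FF hW]
  rw [← Finset.mul_sum]
  congr 1
  have h3 : ∀ k ∈ W, ∑ k' ∈ W, (ee (k' * (a + k * b) * j) - 1) =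
      ∑ k' ∈ W, ee (k' * a * j) * ee ((k' * k) * b * j) - (W.card : ℂ) := by
    intro k _
    rw [Finset.sum_sub_distrib]
    simp only [Finset.sum_const, nsmul_eq_mul, mul_one]
    congr 1
    refine Finset.sum_congr rfl fun k' _ => ?_
    rw [← ee_add]
    congr 1
    ring
  rw [Finset.sum_congr rfl h3, Finset.sum_sub_distrib, Finset.sum_comm]
  simp only [Finset.sum_const, nsmul_eq_mul]
  have h4 : ∀ k' ∈ W, ∑ k ∈ W, ee (k' * a * j) * ee ((k' * k) * b * j) =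
      ee (k' * a * j) * LL W j b := by
    intro k' hk'
    rw [← Finset.mul_sum]
    congr 1
    unfold LL
    exact hW.sum_mul_left hk' (fun x => ee (x * b * j))
  rw [Finset.sum_congr rfl h4, ← Finset.sum_mul]
  unfold LL
  ring

end BD

section Root

variable {ι : Type*}

/-- A root `e_A - e_C`. -/
structure Root (B : Finset ι) (δ : ι → ℤ) (A C : ι) : Prop where
  memA : A ∈ B
  memC : C ∈ B
  ne : A ≠ C
  valA : δ A = 1
  valC : δ C = -1
  zero : ∀ χ ∈ B, χ ≠ A → χ ≠ C → δ χ = 0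

theorem Root.sum_eq [DecidableEq ι] {B : Finset ι} {δ : ι → ℤ} {A C : ι} (h : Root B δ A C)
    {R : Type*} [CommRing R] (g : ι → R) :
    ∑ χ ∈ B, (δ χ : R) * g χ = g A - g C := by
  have hsub : ({A, C} : Finset ι) ⊆ B := by
    intro x hx
    simp only [Finset.mem_insert, Finset.mem_singleton] at hx
    rcases hx with rfl | rfl
    · exact h.memA
    · exact h.memC
  rw [← Finset.sum_subset hsub, Finset.sum_pair h.ne, h.valA, h.valC]
  · push_cast
    ring
  · intro x hx hx'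
    simp only [Finset.mem_insert, Finset.mem_singleton, not_or] at hx'
    rw [h.zero x hx hx'.1 hx'.2]
    simp

theorem Root.le_one {B : Finset ι} {δ : ι → ℤ} {A C : ι} (h : Root B δ A C) {χ : ι} (hχ : χ ∈ B)
    (hne : χ ≠ A) : δ χ ≤ 0 := by
  by_cases hc : χ = C
  · rw [hc, h.valC]; norm_num
  · rw [h.zero χ hχ hne hc]

theorem Root.ge_neg_one {B : Finset ι} {δ : ι → ℤ} {A C : ι} (h : Root B δ A C) {χ : ι} (hχ : χ ∈ B)
    (hne : χ ≠ C) : 0 ≤ δ χ := by
  by_cases hc : χ = A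
  · rw [hc, h.valA]; norm_num
  · rw [h.zero χ hχ hc hne]

theorem Root.le {B : Finset ι} {δ : ι → ℤ} {A C : ι} (h : Root B δ A C) {χ : ι} (hχ : χ ∈ B) :
    δ χ ≤ 1 := by
  by_cases hc : χ = A
  · rw [hc, h.valA]
  · have := h.le_one hχ hc
    omega

theorem Root.ge {B : Finset ι} {δ : ι → ℤ} {A C : ι} (h : Root B δ A C) {χ : ι} (hχ : χ ∈ B) :
    -1 ≤ δ χ := by
  by_cases hc : χ = C
  · rw [hc, h.valC]
  · have := h.ge_neg_one hχ hc
    omega

/-- Integer vectors of norm two. -/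
theorem exists_root [DecidableEq ι] (B : Finset ι) (δ : ι → ℤ) (d : ι → ℕ)
    (hsq : ∑ χ ∈ B, δ χ * δ χ = 2) (hd : ∑ χ ∈ B, δ χ * (d χ : ℤ) = 0)
    (hpos : ∀ χ ∈ B, 0 < d χ) :
    ∃ A C, Root B δ A C ∧ d A = d C := by
  set S := B.filter (fun χ => δ χ ≠ 0) with hS
  have hS2 : ∑ χ ∈ S, δ χ * δ χ = 2 := by
    rw [hS, Finset.sum_filter_of_ne]
    · exact hsq
    · intro x _ hx h0
      exact hx (by rw [h0, mul_zero])
  have hSd : ∑ χ ∈ S, δ χ * (d χ : ℤ) = 0 := by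
    rw [hS, Finset.sum_filter_of_ne]
    · exact hd
    · intro x _ hx h0
      exact hx (by rw [h0, zero_mul])
  have hge : ∀ χ ∈ S, (1 : ℤ) ≤ δ χ * δ χ := by
    intro χ hχ
    have h1 := (Finset.mem_filter.mp hχ).2
    rcases lt_or_gt_of_ne h1 with h | h <;> nlinarith
  have hcard : (S.card : ℤ) ≤ 2 := by
    have h1 := Finset.card_nsmul_le_sum S (fun χ => δ χ * δ χ) 1 hge
    rw [hS2] at h1
    simpa using h1
  have hcard' : S.card ≤ 2 := by exact_mod_cast hcard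
  have h0 : S.card ≠ 0 := by
    intro h
    rw [Finset.card_eq_zero] at h
    rw [h] at hS2
    simp at hS2
  have h1 : S.card ≠ 1 := by
    intro h
    obtain ⟨A, hA⟩ := Finset.card_eq_one.mp h
    rw [hA, Finset.sum_singleton] at hS2
    have : δ A ≤ -2 ∨ δ A = -1 ∨ δ A = 0 ∨ δ A = 1 ∨ 2 ≤ δ A := by omega
    rcases this with h | h | h | h | h
    · nlinarith
    · rw [h] at hS2; norm_num at hS2
    · rw [h] at hS2; norm_num at hS2
    · rw [h] at hS2; norm_num at hS2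
    · nlinarith
  have h2 : S.card = 2 := by omega
  obtain ⟨A, C, hAC, hSeq⟩ := Finset.card_eq_two.mp h2
  have hAS : A ∈ S := by rw [hSeq]; simp
  have hCS : C ∈ S := by rw [hSeq]; simp
  rw [hSeq, Finset.sum_pair hAC] at hS2 hSd
  have hA1 := hge A hAS
  have hC1 := hge C hCS
  have hAa : δ A * δ A = 1 := by omega
  have hCc : δ C * δ C = 1 := by omega
  have hAB : A ∈ B := (Finset.mem_filter.mp hAS).1
  have hCB : C ∈ B := (Finset.mem_filter.mp hCS).1
  have hdA := hpos A hAB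
  have hdC := hpos C hCB
  have hzero : ∀ χ ∈ B, χ ≠ A → χ ≠ C → δ χ = 0 := by
    intro χ hχ h1 h2
    by_contra h3
    have : χ ∈ S := Finset.mem_filter.mpr ⟨hχ, h3⟩
    rw [hSeq] at this
    simp only [Finset.mem_insert, Finset.mem_singleton] at this
    rcases this with h | h
    · exact h1 h
    · exact h2 h
  have hvA : δ A = 1 ∨ δ A = -1 := by
    have : (δ A - 1) * (δ A + 1) = 0 := by linarith
    rcases mul_eq_zero.mp this with h | h
    · left; omega
    · right; omega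
  have hvC : δ C = 1 ∨ δ C = -1 := by
    have : (δ C - 1) * (δ C + 1) = 0 := by linarith
    rcases mul_eq_zero.mp this with h | h
    · left; omega
    · right; omega
  have hdA' : (0 : ℤ) < d A := by exact_mod_cast hdA
  have hdC' : (0 : ℤ) < d C := by exact_mod_cast hdC
  rcases hvA with hA | hA <;> rcases hvC with hC | hC
  · rw [hA, hC] at hSd
    omega
  · rw [hA, hC] at hSd
    refine ⟨A, C, ⟨hAB, hCB, hAC, hA, hC, hzero⟩, ?_⟩
    have : (d A : ℤ) = d C := by linarith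
    exact_mod_cast this
  · rw [hA, hC] at hSd
    refine ⟨C, A, ⟨hCB, hAB, hAC.symm, hC, hA, fun χ hχ h1 h2 => hzero χ hχ h2 h1⟩, ?_⟩
    have : (d C : ℤ) = d A := by linarith
    exact_mod_cast this
  · rw [hA, hC] at hSd
    omega

/-- The dichotomy for pairwise inner products at least one. -/
theorem root_dichotomy [DecidableEq ι] {B : Finset ι} {J : Type*} (δ : J → ι → ℤ)
    (hroot : ∀ j, ∃ A C, Root B (δ j) A C)
    (hin : ∀ j j', 1 ≤ ∑ χ ∈ B, δ j χ * δ j' χ) (j₀ : J) {A C : ι} (h₀ : Root B (δ j₀) A C) :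
    (∀ j, δ j A = 1) ∨ (∀ j, δ j C = -1) := by
  by_contra hcon
  push Not at hcon
  obtain ⟨⟨j₁, hj₁⟩, ⟨j₂, hj₂⟩⟩ := hcon
  obtain ⟨A₁, C₁, h₁⟩ := hroot j₁
  obtain ⟨A₂, C₂, h₂⟩ := hroot j₂
  have hi₁ : 1 ≤ δ j₁ A - δ j₁ C := by
    have := hin j₀ j₁
    have h3 := h₀.sum_eq (R := ℤ) (δ j₁)
    simp only [Int.cast_id] at h3
    rwa [h3] at this
  have hi₂ : 1 ≤ δ j₂ A - δ j₂ C := by
    have := hin j₀ j₂
    have h3 := h₀.sum_eq (R := ℤ) (δ j₂)
    simp only [Int.cast_id] at h3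
    rwa [h3] at this
  -- the values of `δ j₁`
  have hA₁ : A ≠ A₁ := by
    rintro rfl
    exact hj₁ h₁.valA
  have h1a : δ j₁ A ≤ 0 := h₁.le_one h₀.memA hA₁
  have h1c : δ j₁ C = -1 := by
    have := h₁.ge h₀.memC
    omega
  have hC₁ : C = C₁ := by
    by_contra hne
    have := h₁.ge_neg_one h₀.memC hne
    omega
  have hC₂ : C ≠ C₂ := by
    rintro rfl
    exact hj₂ h₂.valC
  have h2c : 0 ≤ δ j₂ C := h₂.ge_neg_one h₀.memC hC₂
  have h2a : δ j₂ A = 1 := by
    have := h₂.le h₀.memA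
    omega
  have hA₂ : A = A₂ := by
    by_contra hne
    have := h₂.le_one h₀.memA hne
    omega
  have h2c' : δ j₂ C = 0 := by omega
  have h1a' : δ j₁ A = 0 := by omega
  have h3 := hin j₁ j₂
  have h4 := h₁.sum_eq (R := ℤ) (δ j₂)
  simp only [Int.cast_id] at h4
  rw [h4, ← hC₁, h2c'] at h3
  have hne : A₁ ≠ A₂ := by
    rw [← hA₂]
    exact hA₁.symm
  have := h₂.le_one h₁.memA hne
  omega

end Root

end Cfsg.Agent.Lib.CycArith
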