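import Mathlib
import Cfsg.Agent.Lib.CycArith

/-!
# Blocks with cyclic defect: the case of a Sylow subgroup of order at least `p ^ 2`
-/

set_option autoImplicit false
set_option linter.unusedSectionVars false
set_option linter.unusedVariables false

open scoped ComplexConjugate

namespace Cfsg.Agent.Lib.CycArith2

open Cfsg.Agent.Lib.CycArith

variable {n : ℕ} [NeZero n]

theorem ee_ne_one {x : ZMod n} (hx : x ≠ 0) : ee x ≠ 1 := by
  intro h
  apply hx
  have h1 : (ZMod.stdAddChar x : ℂ) = ZMod.stdAddChar (0 : ZMod n) := by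
    rw [AddChar.map_zero_eq_one]
    exact h
  exact ZMod.injective_stdAddChar h1

theorem re_ee_lt {x : ZMod n} (hx : x ≠ 0) : (ee x).re < 1 := by
  have h1 : (ee x).re ≤ ‖ee x‖ := Complex.re_le_norm _
  rw [norm_ee] at h1
  rcases lt_or_eq_of_le h1 with h | h
  · exact h
  · exfalso
    apply ee_ne_one hx
    have h2 : Complex.normSq (ee x) = 1 := by
      rw [Complex.normSq_eq_norm_sq, norm_ee]; norm_num
    rw [Complex.normSq_apply, h] at h2
    have h3 : (ee x).im = 0 := by nlinarith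
    apply Complex.ext
    · simpa using h
    · simpa using h3

section A1

variable {p a : ℕ} [hp : Fact p.Prime]

/-- Solutions of `p x = 0`. -/
def A1 (p n : ℕ) [NeZero n] : Finset (ZMod n) := Finset.univ.filter (fun x => (p : ZMod n) * x = 0)

theorem mem_A1 {x : ZMod n} : x ∈ A1 p n ↔ (p : ZMod n) * x = 0 := by
  simp [A1]

theorem card_A1 (hn : n = p ^ a) (ha : 1 ≤ a) : (A1 p n).card = p := by
  obtain ⟨b, rfl⟩ : ∃ b, a = b + 1 := ⟨a - 1, by omega⟩
  have hpp : p.Prime := hp.out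
  have hpos : 0 < p ^ b := pow_pos hpp.pos b
  have hn' : n = p * p ^ b := by rw [hn, pow_succ']
  have e : (A1 p n) = (Finset.range p).image (fun r : ℕ => (r : ZMod n) * ((p ^ b : ℕ) : ZMod n)) := by
    ext x
    rw [mem_A1, Finset.mem_image]
    constructor
    · intro h
      have h1 : ((p * x.val : ℕ) : ZMod n) = 0 := by
        push_cast
        rw [ZMod.natCast_zmod_val]
        exact h
      rw [ZMod.natCast_eq_zero_iff] at h1
      have h1' : p * p ^ b ∣ p * x.val := by rw [← hn']; exact h1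
      have h2 : p ^ b ∣ x.val := Nat.dvd_of_mul_dvd_mul_left hpp.pos h1'
      obtain ⟨r, hr⟩ := h2
      have h3 : x.val < p * p ^ b := by
        rw [← hn']
        exact ZMod.val_lt x
      have h4 : r < p := by
        rw [hr] at h3
        rw [mul_comm] at h3
        exact Nat.lt_of_mul_lt_mul_right h3
      refine ⟨r, Finset.mem_range.mpr h4, ?_⟩
      rw [mul_comm, ← Nat.cast_mul, ← hr, ZMod.natCast_zmod_val]
    · rintro ⟨r, _, rfl⟩
      have h1 : ((p : ZMod n)) * ((p ^ b : ℕ) : ZMod n) = 0 := by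
        rw [← Nat.cast_mul, ← hn']
        exact ZMod.natCast_self n
      calc (p : ZMod n) * ((r : ZMod n) * ((p ^ b : ℕ) : ZMod n)) =
          (r : ZMod n) * ((p : ZMod n) * ((p ^ b : ℕ) : ZMod n)) := by ring
        _ = 0 := by rw [h1, mul_zero]
  rw [e, Finset.card_image_of_injOn, Finset.card_range]
  intro r₁ h₁ r₂ h₂ h
  have h₁' : r₁ < p := Finset.mem_range.mp h₁
  have h₂' : r₂ < p := Finset.mem_range.mp h₂
  simp only at h
  rw [← Nat.cast_mul, ← Nat.cast_mul, ZMod.natCast_eq_natCast_iff] at h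
  have hl1 : r₁ * p ^ b < n := by
    rw [hn']
    exact Nat.mul_lt_mul_of_pos_right h₁' hpos
  have hl2 : r₂ * p ^ b < n := by
    rw [hn']
    exact Nat.mul_lt_mul_of_pos_right h₂' hpos
  have h3 := Nat.ModEq.eq_of_lt_of_lt h hl1 hl2
  exact Nat.eq_of_mul_eq_mul_right hpos h3

/-- A nonzero solution. -/
theorem exists_c (hn : n = p ^ a) (ha : 1 ≤ a) :
    ∃ c : ZMod n, c ≠ 0 ∧ (p : ZMod n) * c = 0 := by
  obtain ⟨b, rfl⟩ : ∃ b, a = b + 1 := ⟨a - 1, by omega⟩
  have hpp : p.Prime := hp.out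
  have hpos : 0 < p ^ b := pow_pos hpp.pos b
  have hn' : n = p * p ^ b := by rw [hn, pow_succ']
  refine ⟨((p ^ b : ℕ) : ZMod n), ?_, ?_⟩
  · rw [Ne, ZMod.natCast_eq_zero_iff]
    intro h
    have h1 := Nat.le_of_dvd hpos h
    rw [hn'] at h1
    have := hpp.two_le
    nlinarith
  · rw [← Nat.cast_mul, ← hn']
    exact ZMod.natCast_self n

theorem sum_A1_ee (hn : n = p ^ a) (ha : 1 ≤ a) : ∑ x ∈ A1 p n, ee x = 0 := by
  obtain ⟨c, hc0, hc⟩ := exists_c (p := p) hn ha
  have h : ∑ x ∈ A1 p n, ee (x + c) = ∑ x ∈ A1 p n, ee x := by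
    apply Finset.sum_nbij' (fun x => x + c) (fun x => x - c)
    · intro x hx
      rw [mem_A1] at hx ⊢
      rw [mul_add, hx, hc, add_zero]
    · intro x hx
      rw [mem_A1] at hx ⊢
      rw [mul_sub, hx, hc, sub_zero]
    · intro x _
      ring
    · intro x _
      ring
    · intro x _
      rfl
  simp only [ee_add] at h
  rw [← Finset.sum_mul] at h
  have h2 : (∑ x ∈ A1 p n, ee x) * (ee c - 1) = 0 := by
    rw [mul_sub, h, mul_one, sub_self]
  exact (mul_eq_zero.mp h2).resolve_right (sub_ne_zero.mpr (ee_ne_one hc0))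

/-- The nonzero solutions. -/
def A0 (p n : ℕ) [NeZero n] : Finset (ZMod n) := (A1 p n).erase 0

theorem mem_A0 {x : ZMod n} : x ∈ A0 p n ↔ x ≠ 0 ∧ (p : ZMod n) * x = 0 := by
  simp [A0, mem_A1]

theorem card_A0 (hn : n = p ^ a) (ha : 1 ≤ a) : (A0 p n).card = p - 1 := by
  unfold A0
  rw [Finset.card_erase_of_mem (mem_A1.mpr (mul_zero _)), card_A1 hn ha]

theorem sum_A0_ee (hn : n = p ^ a) (ha : 1 ≤ a) : ∑ x ∈ A0 p n, ee x = -1 := by
  have h := sum_A1_ee (p := p) hn ha
  rw [← Finset.add_sum_erase _ _ (mem_A1.mpr (mul_zero _)), ee_zero] at h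
  unfold A0
  linear_combination h

theorem sum_A0_mul {W : Finset (ZMod n)} (hW : WData W) (hn : n = p ^ a) (ha : 1 ≤ a) {k : ZMod n}
    (hk : k ∈ W) : ∑ x ∈ A0 p n, ee (k * x * 1) = -1 := by
  rw [← sum_A0_ee (p := p) hn ha]
  have himg : (A0 p n).image (fun x => k * x) = A0 p n := by
    apply Finset.eq_of_subset_of_card_le
    · intro x hx
      obtain ⟨y, hy, rfl⟩ := Finset.mem_image.mp hx
      rw [mem_A0] at hy ⊢
      refine ⟨hW.ne_zero_mul hk hy.1, ?_⟩
      rw [mul_left_comm, hy.2, mul_zero]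
    · rw [Finset.card_image_of_injective _ (fun x y hxy => hW.inj k hk x y hxy)]
  conv_rhs => rw [← himg]
  rw [Finset.sum_image (fun x _ y _ hxy => hW.inj k hk x y hxy)]
  simp only [mul_one]

theorem sum_A0_LL {W : Finset (ZMod n)} (hW : WData W) (hn : n = p ^ a) (ha : 1 ≤ a) :
    ∑ x ∈ A0 p n, LL W 1 x = -(W.card : ℂ) := by
  unfold LL
  rw [Finset.sum_comm]
  rw [Finset.sum_congr rfl (fun k hk => sum_A0_mul hW hn ha hk)]
  simp

theorem card_le_of_free {W : Finset (ZMod n)} (hW : WData W) (hn : n = p ^ a) (ha : 1 ≤ a) :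
    W.card ≤ p - 1 := by
  obtain ⟨c, hc0, hc⟩ := exists_c (p := p) hn ha
  rw [← card_A0 (p := p) hn ha]
  apply Finset.card_le_card_of_injOn (fun k => k * c)
  · intro k hk
    have : k * c ∈ A0 p n := by
      rw [mem_A0]
      refine ⟨hW.ne_zero_mul hk hc0, ?_⟩
      rw [mul_left_comm, hc, mul_zero]
    exact this
  · intro x hx y hy h
    exact hW.inj_right hc0 hx hy h

end A1

/-- The final integer argument. -/
theorem int_final (p n₁ n μ z τ ε e D : ℤ) (hp : 3 ≤ p) (hn : n = p * p * n₁)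
    (h1 : n * μ = D + (n - 1) * z - ε * e)
    (h2 : 2 * z * (p - 1) + ε * e * (p - 2) = D * (p - 2))
    (hz : z = ε - τ) (hε : ε = 1 ∨ ε = -1) (hτ : τ * τ ≤ e) (hep : e ≤ p - 1) (hD : 0 < D)
    (he : 0 < e) : z = 0 ∧ ε = 1 ∧ D = e := by
  have h3 : n * (μ - z) * (p - 2) = z * p := by linear_combination (p - 2) * h1 - h2
  have hp0 : p ≠ 0 := by omega
  have h4 : p * n₁ * (μ - z) * (p - 2) = z := by
    apply mul_right_cancel₀ hp0
    rw [← h3, hn]
    ring
  have hdvd : p ∣ z := ⟨n₁ * (μ - z) * (p - 2), by linear_combination -h4⟩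
  have hz0 : z = 0 := by
    by_contra hne
    obtain ⟨w, hw⟩ := hdvd
    have hw0 : w ≠ 0 := by
      rintro rfl
      exact hne (by rw [hw, mul_zero])
    have hcase : p ≤ z ∨ z ≤ -p := by
      rcases lt_or_gt_of_ne hw0 with h | h
      · right
        have : w ≤ -1 := by omega
        rw [hw]
        nlinarith
      · left
        have : 1 ≤ w := by omega
        rw [hw]
        nlinarith
    have hτ' : p - 1 ≤ τ ∨ τ ≤ -(p - 1) := by
      rcases hε with rfl | rfl <;> rcases hcase with h | h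
      · right; omega
      · left; omega
      · right; omega
      · left; omega
    have : (p - 1) * (p - 1) ≤ τ * τ := by
      rcases hτ' with h | h <;> nlinarith
    nlinarith
  subst hz0
  have h5 : ε * e * (p - 2) = D * (p - 2) := by linarith
  have hp2 : p - 2 ≠ 0 := by omega
  have h6 : ε * e = D := mul_right_cancel₀ hp2 h5
  rcases hε with rfl | rfl
  · exact ⟨rfl, rfl, by linarith⟩
  · exfalso
    linarith

section Const

variable {p : ℕ} {W : Finset (ZMod n)} {ι : Type*} (D : BD p n W ι)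

/-- Values of a character with constant differences. -/
theorem value_of_const (hW : WData W) {ν : ZMod n} (hν : ν ≠ 0) (X : ι) (ε : ℤ)
    (hX : ∀ j : ZMod n, j ≠ 0 → j ∉ W.image (fun k => k * ν) → D.τ X ν - D.τ X j = ε)
    (i : ZMod n) (hi : i ≠ 0) :
    D.f X i = ((ε - D.τ X ν : ℤ) : ℂ) + (ε : ℂ) * LL W ν i := by
  rw [D.f_tau X i hi]
  have hc : ∀ j : ZMod n, (D.τ X j : ℂ) * ee (i * j) =
      ((D.τ X ν - ε : ℤ) : ℂ) * ee (i * j) +
        (ε : ℂ) * (if j ∈ W.image (fun k => k * ν) then ee (i * j) else 0) -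
        (if j = 0 then ((D.τ X ν - ε : ℤ) : ℂ) else 0) := by
    intro j
    by_cases hj : j = 0
    · subst hj
      have h0 : (0 : ZMod n) ∉ W.image (fun k => k * ν) := by
        intro h
        obtain ⟨k, hk, e⟩ := Finset.mem_image.mp h
        exact hW.ne_zero_mul hk hν e
      rw [if_neg h0, if_pos rfl, D.tau_zero]
      simp [ee_zero]
    · rw [if_neg hj, sub_zero]
      by_cases hm : j ∈ W.image (fun k => k * ν)
      · rw [if_pos hm]
        obtain ⟨k, hk, rfl⟩ := Finset.mem_image.mp hm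
        rw [D.tau_inv hW X hk]
        push_cast
        ring
      · rw [if_neg hm, ← hX j hj hm]
        push_cast
        ring
  simp only [hc]
  rw [Finset.sum_sub_distrib, Finset.sum_add_distrib, ← Finset.mul_sum, ← Finset.mul_sum,
    Finset.sum_ite_eq', if_pos (Finset.mem_univ _), Finset.sum_ite_mem, Finset.univ_inter,
    hW.sum_image_right hν]
  have h0 : ∑ j : ZMod n, ee (i * j) = 0 := by
    have := sum_ee i
    rw [if_neg hi] at this
    rw [← this]
    refine Finset.sum_congr rfl fun j _ => ?_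
    rw [mul_comm]
  rw [h0]
  have h1 : ∑ k ∈ W, ee (i * (k * ν)) = LL W ν i := by
    unfold LL
    refine Finset.sum_congr rfl fun k _ => ?_
    congr 1
    ring
  rw [h1]
  push_cast
  ring

/-- The degree of a character with constant differences. -/
theorem degree_of_const (hW : WData W) {ν : ZMod n} (hν : ν ≠ 0) (X : ι) (ε : ℤ)
    (hX : ∀ j : ZMod n, j ≠ 0 → j ∉ W.image (fun k => k * ν) → D.τ X ν - D.τ X j = ε) :
    (n : ℂ) * (D.μ X 0 : ℂ) = (D.d X : ℂ) + ((n : ℂ) - 1) * ((ε - D.τ X ν : ℤ) : ℂ) -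
      (ε : ℂ) * (W.card : ℂ) := by
  have h1 := D.sum_f_ee X 0
  simp only [mul_zero, neg_zero, ee_zero, mul_one] at h1
  have h2 : ∑ i : ZMod n, (D.f X i - (((ε - D.τ X ν : ℤ) : ℂ) + (ε : ℂ) * LL W ν i)) =
      D.f X 0 - (((ε - D.τ X ν : ℤ) : ℂ) + (ε : ℂ) * LL W ν 0) := by
    apply Finset.sum_eq_single 0
    · intro i _ hi
      rw [value_of_const D hW hν X ε hX i hi, sub_self]
    · exact fun h' => absurd (Finset.mem_univ _) h'
  have h3 : ∑ i : ZMod n, LL W ν i = 0 := by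
    unfold LL
    rw [Finset.sum_comm]
    apply Finset.sum_eq_zero
    intro k hk
    have h4 := sum_ee (k * ν)
    rw [if_neg (hW.ne_zero_mul hk hν)] at h4
    rw [← h4]
    refine Finset.sum_congr rfl fun i _ => ?_
    congr 1
    ring
  have h5 : LL W ν 0 = (W.card : ℂ) := by
    unfold LL
    simp [ee_zero]
  rw [Finset.sum_sub_distrib, Finset.sum_add_distrib, ← Finset.mul_sum, h3, h1, h5, D.f_zero] at h2
  simp only [Finset.sum_const, card_eq, nsmul_eq_mul, mul_zero, add_zero] at h2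
  linear_combination h2

end Const

/-- **The case of a Sylow subgroup of order at least `p ^ 2`.** -/
theorem false_of_large {p a : ℕ} [hp : Fact p.Prime] (hn : n = p ^ a) (ha : 2 ≤ a)
    {W : Finset (ZMod n)} (hW : WData W) {ι : Type*} [DecidableEq ι] (D : BD p n W ι)
    (he2 : 2 ≤ W.card) : False := by
  classical
  have hpp := hp.out
  have ha1 : 1 ≤ a := by omega
  have hep : W.card ≤ p - 1 := card_le_of_free hW hn ha1
  have hp3 : 3 ≤ p := by omega
  obtain ⟨n₁, hn₁⟩ : ∃ n₁ : ℕ, n = p * p * n₁ := by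
    obtain ⟨b, rfl⟩ : ∃ b, a = b + 2 := ⟨a - 2, by omega⟩
    exact ⟨p ^ b, by rw [hn, pow_add]; ring⟩
  have hnpos : 0 < n₁ := by
    rcases Nat.eq_zero_or_pos n₁ with h | h
    · rw [h, mul_zero] at hn₁
      exact absurd hn₁ (NeZero.ne n)
    · exact h
  have hn9 : 9 ≤ n := by
    rw [hn₁]
    calc 9 = 3 * 3 * 1 := by norm_num
      _ ≤ p * p * n₁ := by gcongr; omega
  set ν : ZMod n := (p : ZMod n) with hνdef
  have hν0 : ν ≠ 0 := by
    rw [hνdef, Ne, ZMod.natCast_eq_zero_iff]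
    intro h
    have h1 := Nat.le_of_dvd hpp.pos h
    rw [hn₁] at h1
    nlinarith
  have h10 : (1 : ZMod n) ≠ 0 := by
    intro h
    have h1 : ((1 : ℕ) : ZMod n) = 0 := by simpa using h
    rw [ZMod.natCast_eq_zero_iff] at h1
    have := Nat.le_of_dvd one_pos h1
    omega
  have h1ν : (1 : ZMod n) ∉ W.image (fun k => k * ν) := by
    intro h
    obtain ⟨k, _, e⟩ := Finset.mem_image.mp h
    have hνa : ν ^ a = 0 := by
      rw [hνdef, ← Nat.cast_pow, ← hn]
      exact ZMod.natCast_self n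
    apply h10
    have e' : k * ν = 1 := e
    calc (1 : ZMod n) = (k * ν) ^ a := by rw [e', one_pow]
      _ = k ^ a * ν ^ a := mul_pow _ _ _
      _ = 0 := by rw [hνa, mul_zero]
  have hsym : ∀ x y : ZMod n, x ∈ W.image (fun k => k * y) → y ∈ W.image (fun k => k * x) := by
    intro x y h
    obtain ⟨k, hk, rfl⟩ := Finset.mem_image.mp h
    obtain ⟨k', hk', e⟩ := hW.exists_inv hk
    refine Finset.mem_image.mpr ⟨k', hk', ?_⟩
    calc k' * (k * y) = (k' * k) * y := by ring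
      _ = y := by rw [e, one_mul]
  have hself : ∀ x : ZMod n, x ∈ W.image (fun k => k * x) := fun x =>
    Finset.mem_image.mpr ⟨1, hW.one_mem, one_mul x⟩
  -- the index set
  let J := {j : ZMod n // j ≠ 0 ∧ j ∉ W.image (fun k => k * ν)}
  let δ : J → ι → ℤ := fun j χ => D.τ χ ν - D.τ χ j.1
  have hG : ∀ j j' : J, ∑ χ ∈ D.B, δ j χ * δ j' χ =
      1 + if j.1 ∈ W.image (fun k => k * j'.1) then 1 else 0 := by
    intro j j'
    have e1 : ∀ χ, δ j χ * δ j' χ = D.τ χ ν * D.τ χ ν - D.τ χ ν * D.τ χ j'.1 - D.τ χ j.1 * D.τ χ ν +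
        D.τ χ j.1 * D.τ χ j'.1 := by
      intro χ
      simp only [δ]
      ring
    simp only [e1]
    rw [Finset.sum_add_distrib, Finset.sum_sub_distrib, Finset.sum_sub_distrib,
      D.G1 hW hν0 hν0, D.G1 hW hν0 j'.2.1, D.G1 hW j.2.1 hν0, D.G1 hW j.2.1 j'.2.1,
      if_pos (hself ν), if_neg (fun h => j'.2.2 (hsym _ _ h)), if_neg j.2.2]
    ring
  have hdelta_deg : ∀ j : J, ∑ χ ∈ D.B, δ j χ * (D.d χ : ℤ) = 0 := by
    intro j
    have e1 : ∀ χ, δ j χ * (D.d χ : ℤ) = D.τ χ ν * (D.d χ : ℤ) - D.τ χ j.1 * (D.d χ : ℤ) := by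
      intro χ
      simp only [δ]
      ring
    simp only [e1]
    rw [Finset.sum_sub_distrib, D.G2, D.G2, sub_zero]
  have hroot : ∀ j : J, ∃ A C, Root D.B (δ j) A C ∧ D.d A = D.d C := by
    intro j
    apply exists_root D.B (δ j) D.d _ (hdelta_deg j) D.d_pos
    rw [hG j j, if_pos (hself _)]
    norm_num
  have hin : ∀ j j' : J, 1 ≤ ∑ χ ∈ D.B, δ j χ * δ j' χ := by
    intro j j'
    rw [hG]
    split_ifs <;> norm_num
  let j₀ : J := ⟨1, h10, h1ν⟩
  obtain ⟨A, C, h₀, hdAC⟩ := hroot j₀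
  have hdich := root_dichotomy δ (fun j => by
    obtain ⟨A, C, h, _⟩ := hroot j
    exact ⟨A, C, h⟩) hin j₀ h₀
  -- the values on `Ω`
  have hLν : ∀ a : ZMod n, (p : ZMod n) * a = 0 → LL W ν a = (W.card : ℂ) := by
    intro a ha0
    unfold LL
    have : ∀ k ∈ W, ee (k * a * ν) = 1 := by
      intro k _
      have : k * a * ν = 0 := by
        rw [hνdef]
        calc k * a * (p : ZMod n) = k * ((p : ZMod n) * a) := by ring
          _ = 0 := by rw [ha0, mul_zero]
      rw [this, ee_zero]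
    rw [Finset.sum_congr rfl this]
    simp
  have heC : (W.card : ℂ) ≠ 0 := by
    have : W.card ≠ 0 := by omega
    exact_mod_cast this
  have hE1 : ∀ a ∈ A0 p n, D.f A a - D.f C a = (W.card : ℂ) - LL W 1 a := by
    intro a ha
    obtain ⟨ha0, hap⟩ := mem_A0.mp ha
    have h := h₀.sum_eq (R := ℂ) (fun χ => D.f χ a)
    rw [← h]
    simp only [δ, j₀]
    push_cast
    simp only [sub_mul]
    rw [Finset.sum_sub_distrib, D.G3 hW ha0 ν, D.G3 hW ha0 1, sum_sub_one_W, sum_sub_one_W, hLν a hap]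
    ring
  have hE2 : ∀ a ∈ A0 p n, (W.card : ℂ) * (D.f A a * D.f A a - D.f C a * D.f C a) =
      (D.d A : ℂ) * ((W.card : ℂ) ^ 2 - LL W 1 a * LL W 1 a) := by
    intro a ha
    obtain ⟨ha0, hap⟩ := mem_A0.mp ha
    have h := h₀.sum_eq (R := ℂ) (fun χ => D.f χ a * D.f χ a / (D.d χ : ℂ))
    have h1 := D.C1 hW hap hap ha0 ha0 ν
    have h2 := D.C1 hW hap hap ha0 ha0 1
    rw [hLν a hap] at h1
    have h3 : ∑ χ ∈ D.B, ((δ j₀ χ : ℤ) : ℂ) * (D.f χ a * D.f χ a / (D.d χ : ℂ)) =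
        ∑ χ ∈ D.B, D.f χ a * D.f χ a * (D.τ χ ν : ℂ) / (D.d χ : ℂ) -
          ∑ χ ∈ D.B, D.f χ a * D.f χ a * (D.τ χ 1 : ℂ) / (D.d χ : ℂ) := by
      rw [← Finset.sum_sub_distrib]
      refine Finset.sum_congr rfl fun χ _ => ?_
      simp only [δ, j₀]
      push_cast
      ring
    rw [h3] at h
    have hd0 : (D.d A : ℂ) ≠ 0 := by
      have := D.d_pos A h₀.memA
      exact_mod_cast this.ne'
    have h4 := congrArg (fun x => (W.card : ℂ) * x) h
    simp only [mul_sub] at h4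
    rw [h1, h2, ← hdAC] at h4
    field_simp at h4
    linear_combination -h4
  have hLne : ∀ a ∈ A0 p n, LL W 1 a ≠ (W.card : ℂ) := by
    intro a ha h
    obtain ⟨ha0, hap⟩ := mem_A0.mp ha
    have h1 := congrArg Complex.re h
    unfold LL at h1
    rw [Complex.re_sum] at h1
    have h2 : ∑ k ∈ W, (ee (k * a * 1)).re < ∑ k ∈ W, (1 : ℝ) := by
      apply Finset.sum_lt_sum_of_nonempty ⟨1, hW.one_mem⟩
      intro k hk
      apply re_ee_lt
      rw [mul_one]
      exact hW.ne_zero_mul hk ha0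
    rw [h1] at h2
    simp at h2
  -- the common argument
  have hcommon : ∀ (X : ι) (ε : ℤ), X ∈ D.B → (ε = 1 ∨ ε = -1) → (∀ j : J, δ j X = ε) →
      D.d X = D.d A → (∀ a ∈ A0 p n, D.f A a + D.f C a =
        2 * ((ε - D.τ X ν : ℤ) : ℂ) + (ε : ℂ) * ((W.card : ℂ) + LL W 1 a)) → False := by
    intro X ε hXB hε hX hdX hsum
    have hX' : ∀ j : ZMod n, j ≠ 0 → j ∉ W.image (fun k => k * ν) → D.τ X ν - D.τ X j = ε :=
      fun j h1 h2 => hX ⟨j, h1, h2⟩
    set z : ℤ := ε - D.τ X ν with hz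
    set D₀ := D.d A with hD₀
    have hdeg := degree_of_const D hW hν0 X ε hX'
    rw [← hz, hdX] at hdeg
    -- the relation at each point
    have hrel : ∀ a ∈ A0 p n, (W.card : ℂ) * (2 * (z : ℂ) + (ε : ℂ) * ((W.card : ℂ) + LL W 1 a)) =
        (D₀ : ℂ) * ((W.card : ℂ) + LL W 1 a) := by
      intro a ha
      have h1 := hE1 a ha
      have h2 := hE2 a ha
      have h3 := hsum a ha
      have h4 : (W.card : ℂ) - LL W 1 a ≠ 0 := sub_ne_zero.mpr (hLne a ha).symm
      apply mul_left_cancel₀ h4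
      have e1 : D.f A a * D.f A a - D.f C a * D.f C a = (D.f A a - D.f C a) * (D.f A a + D.f C a) := by
        ring
      rw [e1, h1, h3] at h2
      linear_combination h2
    -- summing
    have hsumrel : (W.card : ℂ) * (2 * (z : ℂ) * ((p : ℂ) - 1) + (ε : ℂ) * (W.card : ℂ) * ((p : ℂ) - 2)) =
        (D₀ : ℂ) * ((W.card : ℂ) * ((p : ℂ) - 2)) := by
      have h1 := Finset.sum_congr rfl hrel
      have hp1 : ((p - 1 : ℕ) : ℂ) = (p : ℂ) - 1 := by
        rw [Nat.cast_sub hpp.one_le]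
        simp
      have s2 : ∑ a ∈ A0 p n, ((W.card : ℂ) + LL W 1 a) = ((p : ℂ) - 1) * (W.card : ℂ) + -(W.card : ℂ) := by
        rw [Finset.sum_add_distrib, sum_A0_LL hW hn ha1, Finset.sum_const, card_A0 hn ha1, nsmul_eq_mul, hp1]
      have s1 : ∑ a ∈ A0 p n, (2 * (z : ℂ) + (ε : ℂ) * ((W.card : ℂ) + LL W 1 a)) =
          ((p : ℂ) - 1) * (2 * (z : ℂ)) + (ε : ℂ) * (((p : ℂ) - 1) * (W.card : ℂ) + -(W.card : ℂ)) := by
        rw [Finset.sum_add_distrib, Finset.sum_const, card_A0 hn ha1, nsmul_eq_mul, hp1, ← Finset.mul_sum, s2]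
      rw [← Finset.mul_sum, ← Finset.mul_sum, s1, s2] at h1
      linear_combination h1
    have hsumrel' : 2 * (z : ℂ) * ((p : ℂ) - 1) + (ε : ℂ) * (W.card : ℂ) * ((p : ℂ) - 2) =
        (D₀ : ℂ) * ((p : ℂ) - 2) := by
      apply mul_left_cancel₀ heC
      linear_combination hsumrel
    have h2Z : 2 * z * ((p : ℤ) - 1) + ε * (W.card : ℤ) * ((p : ℤ) - 2) = (D₀ : ℤ) * ((p : ℤ) - 2) := by
      exact_mod_cast hsumrel'
    have h1Z : (n : ℤ) * (D.μ X 0 : ℤ) = (D₀ : ℤ) + ((n : ℤ) - 1) * z - ε * (W.card : ℤ) := by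
      exact_mod_cast hdeg
    have hXne : X ≠ D.x₀ := by
      rintro rfl
      have h1 := hX j₀
      simp only [δ, j₀] at h1
      rw [D.tau_base _ hν0, D.tau_base _ h10] at h1
      rcases hε with h | h <;> omega
    have hτ : D.τ X ν * D.τ X ν ≤ (W.card : ℤ) := by
      have h1 := D.G1 hW hν0 hν0
      rw [if_pos (hself ν)] at h1
      have hsub : ({X, D.x₀} : Finset ι) ⊆ D.B := by
        intro x hx
        simp only [Finset.mem_insert, Finset.mem_singleton] at hx
        rcases hx with rfl | rfl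
        · exact hXB
        · exact D.x₀_mem
      have h2 := Finset.sum_le_sum_of_subset_of_nonneg (f := fun χ => D.τ χ ν * D.τ χ ν) hsub
        (fun x _ _ => mul_self_nonneg _)
      rw [Finset.sum_pair hXne, h1, D.tau_base _ hν0] at h2
      linarith
    have hn₁Z : (n : ℤ) = (p : ℤ) * (p : ℤ) * (n₁ : ℤ) := by exact_mod_cast hn₁
    have hDpos : (0 : ℤ) < (D₀ : ℤ) := by
      have := D.d_pos A h₀.memA
      exact_mod_cast this
    have hepZ : (W.card : ℤ) ≤ (p : ℤ) - 1 := by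
      have h1 : W.card + 1 ≤ p := by omega
      have h2 : ((W.card + 1 : ℕ) : ℤ) ≤ (p : ℤ) := by exact_mod_cast h1
      push_cast at h2
      linarith
    have hfin := int_final (p : ℤ) (n₁ : ℤ) (n : ℤ) (D.μ X 0 : ℤ) z (D.τ X ν) ε (W.card : ℤ) (D₀ : ℤ)
      (by exact_mod_cast hp3) hn₁Z h1Z h2Z rfl hε hτ hepZ hDpos (by
        have : 0 < W.card := by omega
        exact_mod_cast this)
    obtain ⟨hz0, hε1, hDe⟩ := hfin
    obtain ⟨c, hc0, hc⟩ := exists_c (p := p) hn ha1
    have hval := value_of_const D hW hν0 X ε hX' c hc0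
    rw [← hz, hz0, hε1, hLν c hc] at hval
    apply D.ker X hXB hXne c hc0
    rw [hval, hdX]
    have : (D₀ : ℂ) = (W.card : ℂ) := by
      have h1 : D₀ = W.card := by exact_mod_cast hDe
      rw [h1]
    rw [this]
    simp
  rcases hdich with h | h
  · -- `A`
    apply hcommon A 1 h₀.memA (Or.inl rfl) h rfl
    intro a ha
    obtain ⟨ha0, hap⟩ := mem_A0.mp ha
    have hX' : ∀ j : ZMod n, j ≠ 0 → j ∉ W.image (fun k => k * ν) → D.τ A ν - D.τ A j = 1 :=
      fun j h1 h2 => h ⟨j, h1, h2⟩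
    have hval := value_of_const D hW hν0 A 1 hX' a ha0
    rw [hLν a hap] at hval
    have h1 := hE1 a ha
    have hC : D.f C a = D.f A a - ((W.card : ℂ) - LL W 1 a) := by rw [← h1]; ring
    rw [hC, hval]
    push_cast
    ring
  · -- `C`
    apply hcommon C (-1) h₀.memC (Or.inr rfl) h hdAC.symm
    intro a ha
    obtain ⟨ha0, hap⟩ := mem_A0.mp ha
    have hX' : ∀ j : ZMod n, j ≠ 0 → j ∉ W.image (fun k => k * ν) → D.τ C ν - D.τ C j = -1 :=
      fun j h1 h2 => h ⟨j, h1, h2⟩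
    have hval := value_of_const D hW hν0 C (-1) hX' a ha0
    rw [hLν a hap] at hval
    have h1 := hE1 a ha
    have hA : D.f A a = D.f C a + ((W.card : ℂ) - LL W 1 a) := by rw [← h1]; ring
    rw [hA, hval]
    push_cast
    ring

end Cfsg.Agent.Lib.CycArith2
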