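import Mathlib
import Cfsg.Agent.Lib.CycArith2

/-!
# Blocks with cyclic defect: the case of a Sylow subgroup of prime order
-/

set_option autoImplicit false
set_option linter.unusedSectionVars false
set_option linter.unusedVariables false

open scoped ComplexConjugate

namespace Cfsg.Agent.Lib.CycArith3

open Cfsg.Agent.Lib.CycArith Cfsg.Agent.Lib.CycArith2

variable {n : ℕ} [NeZero n]

/-- The real estimate. -/
theorem real_bound {ι : Type*} (F : Finset ι) (u v : ι → ℤ) (d m : ι → ℕ) (e : ℕ) (he : 2 ≤ e)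
    (hu : ∑ i ∈ F, u i * u i = e) (hv : ∑ i ∈ F, v i * v i = e) (hd : ∀ i ∈ F, m i + e ≤ d i)
    (hvm : ∀ i ∈ F, -(m i : ℤ) ≤ v i)
    (hsum : ∑ i ∈ F, ((u i * u i * v i : ℤ) : ℝ) / (d i : ℝ) = 1 - (e : ℝ)) : False := by
  classical
  have heR : (2 : ℝ) ≤ e := by exact_mod_cast he
  have h2e : (0 : ℝ) < 2 * (e : ℝ) - 1 := by linarith
  have hterm : ∀ i ∈ F, -(((u i * u i : ℤ) : ℝ) * (((e : ℝ) - 1) / (2 * (e : ℝ) - 1))) ≤
      ((u i * u i * v i : ℤ) : ℝ) / (d i : ℝ) := by
    intro i hi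
    have hdi := hd i hi
    have hdpos : (0 : ℝ) < d i := by
      have : 0 < d i := by omega
      exact_mod_cast this
    have huu : (0 : ℝ) ≤ ((u i * u i : ℤ) : ℝ) := by
      have : 0 ≤ u i * u i := mul_self_nonneg _
      exact_mod_cast this
    have hq : (0 : ℝ) ≤ ((e : ℝ) - 1) / (2 * (e : ℝ) - 1) := div_nonneg (by linarith) h2e.le
    by_cases hv0 : 0 ≤ v i
    · have h1 : (0 : ℝ) ≤ ((u i * u i * v i : ℤ) : ℝ) := by
        have : 0 ≤ u i * u i * v i := mul_nonneg (mul_self_nonneg _) hv0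
        exact_mod_cast this
      have h2 := div_nonneg h1 hdpos.le
      have h3 := mul_nonneg huu hq
      linarith
    · push Not at hv0
      -- `s = - v i`
      have hsq : v i * v i ≤ e := by
        rw [← hv]
        exact Finset.single_le_sum (f := fun i => v i * v i) (fun x _ => mul_self_nonneg _) hi
      have hs1 : -v i ≤ (e : ℤ) - 1 := by
        by_contra hcon
        push Not at hcon
        have heZ : (2 : ℤ) ≤ e := by exact_mod_cast he
        nlinarith
      have hsm := hvm i hi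
      have hdZ : (m i : ℤ) + e ≤ d i := by exact_mod_cast hdi
      have hvR : -(v i : ℝ) ≤ (e : ℝ) - 1 := by exact_mod_cast hs1
      have hdR : -(v i : ℝ) + (e : ℝ) ≤ d i := by
        have : -v i + e ≤ (d i : ℤ) := by linarith
        exact_mod_cast this
      have hv0R : (v i : ℝ) < 0 := by exact_mod_cast hv0
      have key : -(((e : ℝ) - 1) / (2 * (e : ℝ) - 1)) ≤ (v i : ℝ) / (d i : ℝ) := by
        rw [neg_le_iff_add_nonneg, div_add_div _ _ hdpos.ne' h2e.ne']
        apply div_nonneg _ (by positivity)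
        nlinarith
      have e1 : ((u i * u i * v i : ℤ) : ℝ) / (d i : ℝ) =
          ((u i * u i : ℤ) : ℝ) * ((v i : ℝ) / (d i : ℝ)) := by
        push_cast
        ring
      rw [e1]
      have := mul_le_mul_of_nonneg_left key huu
      linarith
  have hsum2 := Finset.sum_le_sum hterm
  rw [hsum, Finset.sum_neg_distrib, ← Finset.sum_mul] at hsum2
  have huR : ∑ i ∈ F, ((u i * u i : ℤ) : ℝ) = e := by exact_mod_cast hu
  rw [huR] at hsum2
  -- `1 - e ≥ - e (e - 1) / (2 e - 1)`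
  have h3 : ((e : ℝ) - 1) * (2 * (e : ℝ) - 1) ≤ (e : ℝ) * ((e : ℝ) - 1) := by
    have h4 : (e : ℝ) * (((e : ℝ) - 1) / (2 * (e : ℝ) - 1)) * (2 * (e : ℝ) - 1) =
        (e : ℝ) * ((e : ℝ) - 1) := by
      rw [mul_assoc, div_mul_cancel₀ _ h2e.ne']
    have h5 : ((e : ℝ) - 1) ≤ (e : ℝ) * (((e : ℝ) - 1) / (2 * (e : ℝ) - 1)) := by linarith
    have h6 := mul_le_mul_of_nonneg_right h5 h2e.le
    rw [h4] at h6
    exact h6
  nlinarith

section Main

variable {p : ℕ} {W : Finset (ZMod n)} {ι : Type*} (D : BD p n W ι)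

/-- A lower bound for the degree. -/
theorem deg_ge (hW : WData W) (h10 : (1 : ZMod n) ≠ 0) {χ : ι} (hχ : χ ∈ D.B) (hne : χ ≠ D.x₀) :
    D.μ χ 0 + W.card ≤ D.d χ := by
  classical
  have hsum : D.d χ = ∑ j, D.μ χ j := by
    have := D.d_eq_sum χ
    exact_mod_cast this
  obtain ⟨j, hj0, hj⟩ : ∃ j : ZMod n, j ≠ 0 ∧ D.μ χ j ≠ 0 := by
    by_contra hcon
    push Not at hcon
    have h1 : ∀ i : ZMod n, D.f χ i = (D.μ χ 0 : ℂ) := by
      intro i
      rw [D.f_expand, Finset.sum_eq_single 0]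
      · simp [ee_zero]
      · intro b _ hb
        rw [hcon b hb]
        simp
      · exact fun h' => absurd (Finset.mem_univ _) h'
    apply D.ker χ hχ hne 1 h10
    rw [h1, ← D.f_zero, h1]
  have h0 : (0 : ZMod n) ∉ W.image (fun k => k * j) := by
    intro h
    obtain ⟨k, hk, e⟩ := Finset.mem_image.mp h
    exact hW.ne_zero_mul hk hj0 e
  have hsub : insert (0 : ZMod n) (W.image (fun k => k * j)) ⊆ Finset.univ := Finset.subset_univ _
  have h1 := Finset.sum_le_sum_of_subset (f := fun j => D.μ χ j) hsub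
  rw [Finset.sum_insert h0, hW.sum_image_right hj0, ← hsum] at h1
  have h2 : ∑ k ∈ W, D.μ χ (k * j) = W.card * D.μ χ j := by
    rw [Finset.sum_congr rfl (fun k hk => D.mu_inv hW χ hk j)]
    simp
  rw [h2] at h1
  have h3 : W.card ≤ W.card * D.μ χ j := Nat.le_mul_of_pos_right _ (Nat.pos_of_ne_zero hj)
  omega

/-- The third moment of two different orbits. -/
theorem third_moment (hW : WData W) (hall : ∀ a : ZMod n, (p : ZMod n) * a = 0) {j l : ZMod n}
    (hj : j ≠ 0) (hl : l ≠ 0) (hjl : j ∉ W.image (fun k => k * l)) (hcard : (W.card : ℂ) ≠ 0) :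
    ∑ χ ∈ D.B, ((D.τ χ j * D.τ χ j * D.τ χ l : ℤ) : ℂ) / (D.d χ : ℂ) = -(W.card : ℂ) := by
  set A : ZMod n → ℂ := fun a => ee (-(a * j)) - 1 with hA
  have hA0 : A 0 = 0 := by
    simp [hA, ee_zero]
  have hnn : (n : ℂ) ≠ 0 := BD.n_ne_zero (n := n)
  have hsumA : ∑ a, A a = -(n : ℂ) := sum_sub_one j hj
  have hsumAL : ∑ a, A a * LL W l a = 0 := by
    unfold LL
    simp only [Finset.mul_sum]
    rw [Finset.sum_comm]
    apply Finset.sum_eq_zero
    intro k hk
    have hkl : k * l ≠ 0 := hW.ne_zero_mul hk hl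
    have h1 : ∀ a : ZMod n, A a * ee (k * a * l) = ee (a * (k * l - j)) - ee (a * (k * l)) := by
      intro a
      simp only [hA]
      have : ee (a * (k * l - j)) = ee (a * (k * l)) * ee (-(a * j)) := by
        rw [← ee_add]
        congr 1
        ring
      rw [this]
      have e2 : k * a * l = a * (k * l) := by ring
      rw [e2]
      ring
    simp only [h1]
    rw [Finset.sum_sub_distrib, sum_ee, sum_ee, if_neg hkl, if_neg, sub_zero]
    intro h
    apply hjl
    exact Finset.mem_image.mpr ⟨k, hk, sub_eq_zero.mp h⟩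
  have hmain : (W.card : ℂ) * ((n : ℂ) * (n : ℂ)) *
      ∑ χ ∈ D.B, ((D.τ χ j * D.τ χ j * D.τ χ l : ℤ) : ℂ) / (D.d χ : ℂ) =
      ∑ a, ∑ b, A a * A b * ((W.card : ℂ) * ∑ χ ∈ D.B, D.f χ a * D.f χ b * (D.τ χ l : ℂ) / (D.d χ : ℂ)) := by
    simp only [Finset.mul_sum]
    have h1 : ∀ χ ∈ D.B, (W.card : ℂ) * ((n : ℂ) * (n : ℂ) *
        (((D.τ χ j * D.τ χ j * D.τ χ l : ℤ) : ℂ) / (D.d χ : ℂ))) =
        ∑ a, ∑ b, A a * A b * ((W.card : ℂ) * (D.f χ a * D.f χ b * (D.τ χ l : ℂ) / (D.d χ : ℂ))) := by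
      intro χ _
      have h2 := D.tau_formula χ j
      have e1 : (W.card : ℂ) * ((n : ℂ) * (n : ℂ) *
          (((D.τ χ j * D.τ χ j * D.τ χ l : ℤ) : ℂ) / (D.d χ : ℂ))) =
          ((n : ℂ) * (D.τ χ j : ℂ)) * ((n : ℂ) * (D.τ χ j : ℂ)) *
            ((W.card : ℂ) * ((D.τ χ l : ℂ) / (D.d χ : ℂ))) := by
        push_cast
        ring
      rw [e1, ← h2, Finset.sum_mul_sum, Finset.sum_mul]
      refine Finset.sum_congr rfl fun a _ => ?_
      rw [Finset.sum_mul]
      refine Finset.sum_congr rfl fun b _ => ?_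
      simp only [hA]
      ring
    have e3 : ∀ x : ℂ, (W.card : ℂ) * ((n : ℂ) * (n : ℂ)) * x = (W.card : ℂ) * ((n : ℂ) * (n : ℂ) * x) := by
      intro x; ring
    simp only [e3]
    rw [Finset.sum_congr rfl h1, Finset.sum_comm]
    refine Finset.sum_congr rfl fun a _ => ?_
    rw [Finset.sum_comm]
  have hsubst : ∀ a b : ZMod n, A a * A b * ((W.card : ℂ) * ∑ χ ∈ D.B, D.f χ a * D.f χ b * (D.τ χ l : ℂ) / (D.d χ : ℂ)) =
      A a * A b * (LL W l a * LL W l b - (W.card : ℂ) ^ 2) := by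
    intro a b
    by_cases ha : a = 0
    · subst ha
      rw [hA0]
      simp
    · by_cases hb : b = 0
      · subst hb
        rw [hA0]
        simp
      · rw [D.C1 hW (hall a) (hall b) ha hb l]
  simp only [hsubst] at hmain
  have hexp : ∑ a, ∑ b, A a * A b * (LL W l a * LL W l b - (W.card : ℂ) ^ 2) =
      (∑ a, A a * LL W l a) * (∑ b, A b * LL W l b) - (W.card : ℂ) ^ 2 * ((∑ a, A a) * (∑ b, A b)) := by
    rw [Finset.sum_mul_sum, Finset.sum_mul_sum, Finset.mul_sum, ← Finset.sum_sub_distrib]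
    refine Finset.sum_congr rfl fun a _ => ?_
    rw [Finset.mul_sum, ← Finset.sum_sub_distrib]
    refine Finset.sum_congr rfl fun b _ => ?_
    ring
  rw [hexp, hsumAL, hsumA] at hmain
  have hne : (W.card : ℂ) * ((n : ℂ) * (n : ℂ)) ≠ 0 := mul_ne_zero hcard (mul_ne_zero hnn hnn)
  apply mul_left_cancel₀ hne
  rw [hmain]
  ring

end Main

/-- **The case of a Sylow subgroup of prime order and at least two orbits.** -/
theorem false_of_prime {p : ℕ} [hp : Fact p.Prime] (hn : n = p) {W : Finset (ZMod n)} (hW : WData W)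
    {ι : Type*} [DecidableEq ι] (D : BD p n W ι) (he2 : 2 ≤ W.card) {l : ZMod n} (hl : l ≠ 0)
    (hlW : l ∉ W) : False := by
  classical
  have hpp := hp.out
  have h10 : (1 : ZMod n) ≠ 0 := by
    intro h
    have h1 : ((1 : ℕ) : ZMod n) = 0 := by simpa using h
    rw [ZMod.natCast_eq_zero_iff, hn] at h1
    exact hpp.one_lt.ne' (Nat.dvd_one.mp h1)
  have hall : ∀ a : ZMod n, (p : ZMod n) * a = 0 := by
    intro a
    have : (p : ZMod n) = 0 := by
      rw [ZMod.natCast_eq_zero_iff, hn]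
    rw [this, zero_mul]
  have h1l : (1 : ZMod n) ∉ W.image (fun k => k * l) := by
    intro h
    obtain ⟨k, hk, e⟩ := Finset.mem_image.mp h
    apply hlW
    obtain ⟨k', hk', e'⟩ := hW.exists_inv hk
    have e2 : k * l = 1 := e
    have : l = k' := by
      calc l = (k' * k) * l := by rw [e', one_mul]
        _ = k' * (k * l) := by ring
        _ = k' := by rw [e2, mul_one]
    rw [this]
    exact hk'
  have hcard : (W.card : ℂ) ≠ 0 := by
    have : W.card ≠ 0 := by omega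
    exact_mod_cast this
  have h3 := third_moment D hW hall h10 hl h1l hcard
  have hself : ∀ x : ZMod n, x ∈ W.image (fun k => k * x) := fun x =>
    Finset.mem_image.mpr ⟨1, hW.one_mem, one_mul x⟩
  set F := D.B.erase D.x₀ with hF
  have hsplit : ∀ g : ι → ℤ, g D.x₀ = 1 → ∑ χ ∈ D.B, g χ = W.card + 1 → ∑ χ ∈ F, g χ = W.card := by
    intro g hg h
    rw [← Finset.add_sum_erase _ _ D.x₀_mem, hg] at h
    linarith
  have hu : ∑ χ ∈ F, D.τ χ 1 * D.τ χ 1 = W.card := by
    apply hsplit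
    · rw [D.tau_base _ h10]; norm_num
    · rw [D.G1 hW h10 h10, if_pos (hself 1)]
  have hv : ∑ χ ∈ F, D.τ χ l * D.τ χ l = W.card := by
    apply hsplit
    · rw [D.tau_base _ hl]; norm_num
    · rw [D.G1 hW hl hl, if_pos (hself l)]
  apply real_bound F (fun χ => D.τ χ 1) (fun χ => D.τ χ l) D.d (fun χ => D.μ χ 0) W.card he2 hu hv
  · intro χ hχ
    exact deg_ge D hW h10 (Finset.mem_of_mem_erase hχ) (Finset.ne_of_mem_erase hχ)
  · intro χ _
    simp only [BD.τ]
    have : (0 : ℤ) ≤ (D.μ χ l : ℤ) := Int.natCast_nonneg _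
    linarith
  · -- the sum
    have h4 : ∑ χ ∈ D.B, ((D.τ χ 1 * D.τ χ 1 * D.τ χ l : ℤ) : ℝ) / (D.d χ : ℝ) = -(W.card : ℝ) := by
      apply Complex.ofReal_injective
      push_cast
      push_cast at h3
      exact h3
    rw [← Finset.add_sum_erase _ _ D.x₀_mem, D.tau_base _ h10, D.tau_base _ hl, D.d_base] at h4
    push_cast at h4
    push_cast
    rw [← hF] at h4
    linarith

end Cfsg.Agent.Lib.CycArith3
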