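import Mathlib
import Cfsg.Prelude.Def_Transfer
import Cfsg.Prelude.Def_Local
import Cfsg.Agent.Lib.BlockSection
import Cfsg.Agent.Lib.SingConst
import Cfsg.Agent.Lib.OddPGroup
import Cfsg.Agent.Lib.CycArith3

/-!
# Finite groups with a cyclic Sylow subgroup: fusion

The multiplier set of a cyclic Sylow `p`-subgroup, and the normal `p`-complements of the centralizers
of its nonidentity elements.
-/

set_option autoImplicit false
set_option linter.unusedSectionVars false
set_option linter.unusedVariables false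

open Cfsg
open scoped ComplexConjugate

namespace Cfsg.Agent.Lib.CycSylow

open Cfsg.Agent.Lib.CycArith Cfsg.Agent.Lib.CycArith2

universe u

variable {G : Type u} [Group G] [Finite G] {p : ℕ} [hp : Fact p.Prime]

theorem comm_of_cyclic {P : Subgroup G} (hc : IsCyclic P) {a b : G} (ha : a ∈ P) (hb : b ∈ P) :
    a * b = b * a := by
  have h1 : (⟨a, ha⟩ : P) * ⟨b, hb⟩ = ⟨b, hb⟩ * ⟨a, ha⟩ := by
    let _ := hc.commGroup
    exact mul_comm _ _
  exact congrArg Subtype.val h1

/-- A `p`-element normalizing a Sylow subgroup lies in it. -/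
theorem mem_of_pelement_normalizer (P : Sylow p G) {u : G}
    (hu : u ∈ Subgroup.normalizer ((P : Subgroup G) : Set G)) {k : ℕ} (hk : u ^ p ^ k = 1) :
    u ∈ (P : Subgroup G) := by
  have hz : IsPGroup p (Subgroup.zpowers u) :=
    Cfsg.Agent.Lib.LocalBalance2.isPGroup_zpowers_of_ppow hk
  have hle : Subgroup.zpowers u ≤ Subgroup.normalizer ((P : Subgroup G) : Set G) := by
    rw [Subgroup.zpowers_le]
    exact hu
  have h1 : IsPGroup p (Subgroup.zpowers u ⊔ (P : Subgroup G) : Subgroup G) :=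
    hz.to_sup_of_normal_right' P.isPGroup' hle
  have h2 := P.is_maximal' h1 le_sup_right
  have h3 : u ∈ (Subgroup.zpowers u ⊔ (P : Subgroup G) : Subgroup G) :=
    (le_sup_left : Subgroup.zpowers u ≤ _) (Subgroup.mem_zpowers u)
  rw [h2] at h3
  exact h3

theorem conj_zpow_eq (y : G) {a : G} (h : y * a * y⁻¹ = a) (k : ℤ) : y * a ^ k * y⁻¹ = a ^ k := by
  have : y * a ^ k * y⁻¹ = (y * a * y⁻¹) ^ k := by
    simp [conj_zpow]
  rw [this, h]

/-- Iterated action. -/
theorem iter_conj {y s v : G} (h1 : y * s * y⁻¹ = s * v) (h2 : y * v * y⁻¹ = v) (k : ℕ) :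
    y ^ k * s * (y ^ k)⁻¹ = s * v ^ k := by
  induction k with
  | zero => simp
  | succ k ih =>
    have h3 : y * v ^ k * y⁻¹ = v ^ k := by
      have := conj_zpow_eq y h2 (k : ℤ)
      simpa using this
    calc y ^ (k + 1) * s * (y ^ (k + 1))⁻¹ = y * (y ^ k * s * (y ^ k)⁻¹) * y⁻¹ := by
          rw [pow_succ']; group
      _ = y * (s * v ^ k) * y⁻¹ := by rw [ih]
      _ = (y * s * y⁻¹) * (y * v ^ k * y⁻¹) := by group
      _ = s * v * v ^ k := by rw [h1, h3]
      _ = s * v ^ (k + 1) := by rw [pow_succ', mul_assoc]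

/-- An element of `p'`-order normalizing a cyclic Sylow subgroup and fixing a nonidentity element
centralizes it. -/
theorem centralizes_of_fix_coprime (P : Sylow p G) (hc : IsCyclic (P : Subgroup G)) {y : G}
    (hy : y ∈ Subgroup.normalizer ((P : Subgroup G) : Set G)) (hco : ¬ p ∣ orderOf y) {a : G}
    (ha : a ∈ (P : Subgroup G)) (ha1 : a ≠ 1) (hfix : y * a * y⁻¹ = a) :
    ∀ s ∈ (P : Subgroup G), y * s * y⁻¹ = s := by
  classical
  have hpp := hp.out
  have hcomm : ∀ x ∈ (P : Subgroup G), ∀ z ∈ (P : Subgroup G), x * z = z * x :=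
    fun x hx z hz => comm_of_cyclic hc hx hz
  have hnorm : ∀ x ∈ (P : Subgroup G), y * x * y⁻¹ ∈ (P : Subgroup G) := fun x hx =>
    (Subgroup.mem_normalizer_iff.mp hy x).mp hx
  -- an element of order `p` fixed by `y`
  have hpa : p ∣ orderOf a := by
    obtain ⟨k, hk⟩ := P.isPGroup' ⟨a, ha⟩
    have h1 : a ^ p ^ k = 1 := by
      have := congrArg Subtype.val hk
      simpa using this
    have h2 : orderOf a ∣ p ^ k := orderOf_dvd_of_pow_eq_one h1
    obtain ⟨j, _, hj⟩ := (Nat.dvd_prime_pow hpp).mp h2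
    rw [hj]
    have hj0 : j ≠ 0 := by
      rintro rfl
      rw [pow_zero] at hj
      exact ha1 (orderOf_eq_one_iff.mp hj)
    exact dvd_pow_self p hj0
  set a' := a ^ (orderOf a / p) with ha'
  have ha'o : orderOf a' = p := orderOf_pow_orderOf_div (orderOf_pos a).ne' hpa
  have ha'P : a' ∈ (P : Subgroup G) := pow_mem ha _
  have ha'fix : y * a' * y⁻¹ = a' := by
    rw [ha', ← conj_pow, hfix]
  -- the solutions of `v ^ p = 1`
  have hΩ : ∀ v ∈ (P : Subgroup G), v ^ p = 1 → y * v * y⁻¹ = v := by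
    intro v hv hvp
    by_cases hv1 : v = 1
    · subst hv1
      simp
    have hvo : orderOf v = p := orderOf_eq_prime hvp hv1
    have : IsCyclic (P : Subgroup G) := hc
    have heq : Subgroup.zpowers (⟨v, hv⟩ : (P : Subgroup G)) = Subgroup.zpowers (⟨a', ha'P⟩ : (P : Subgroup G)) := by
      apply Cfsg.Agent.Lib.OddPGroup.eq_of_card_of_isCyclic
      rw [Nat.card_zpowers, Nat.card_zpowers, Subgroup.orderOf_mk, Subgroup.orderOf_mk, hvo, ha'o]
    have hmem : (⟨v, hv⟩ : (P : Subgroup G)) ∈ Subgroup.zpowers (⟨a', ha'P⟩ : (P : Subgroup G)) := by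
      rw [← heq]
      exact Subgroup.mem_zpowers _
    obtain ⟨k, hk⟩ := hmem
    have hk' : a' ^ k = v := by
      have := congrArg Subtype.val hk
      simpa using this
    rw [← hk']
    exact conj_zpow_eq y ha'fix k
  have hstep : ∀ j : ℕ, ∀ s ∈ (P : Subgroup G), s ^ p ^ j = 1 → y * s * y⁻¹ = s := by
    intro j
    induction j with
    | zero =>
      intro s _ hs
      rw [pow_zero, pow_one] at hs
      rw [hs]
      simp
    | succ j ih =>
      intro s hs hsj
      have h1 : y * s ^ p * y⁻¹ = s ^ p := by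
        apply ih _ (pow_mem hs p)
        rw [← pow_mul, ← pow_succ']
        exact hsj
      set v := s⁻¹ * (y * s * y⁻¹) with hv
      have hvP : v ∈ (P : Subgroup G) := mul_mem (inv_mem hs) (hnorm s hs)
      have hvp : v ^ p = 1 := by
        have hc1 : Commute s⁻¹ (y * s * y⁻¹) := hcomm _ (inv_mem hs) _ (hnorm s hs)
        rw [hv, hc1.mul_pow, inv_pow]
        have h2 : (y * s * y⁻¹) ^ p = y * s ^ p * y⁻¹ := by
          simp [conj_pow]
        rw [h2, h1]
        group
      have hvfix := hΩ v hvP hvp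
      have h3 : y * s * y⁻¹ = s * v := by
        rw [hv]
        group
      have h4 := iter_conj h3 hvfix (orderOf y)
      rw [pow_orderOf_eq_one] at h4
      have h5 : v ^ orderOf y = 1 := by
        have h6 : s * v ^ orderOf y = s * 1 := by
          rw [← h4]
          simp
        exact mul_left_cancel h6
      have h7 : orderOf v ∣ orderOf y := orderOf_dvd_of_pow_eq_one h5
      have h8 : orderOf v ∣ p := orderOf_dvd_of_pow_eq_one hvp
      have h9 : (orderOf y).Coprime p := ((Nat.Prime.coprime_iff_not_dvd hpp).mpr hco).symm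
      have h10 : orderOf v = 1 := Nat.eq_one_of_dvd_coprimes h9 h7 h8
      rw [orderOf_eq_one_iff.mp h10, mul_one] at h3
      exact h3
  intro s hs
  obtain ⟨k, hk⟩ := P.isPGroup' ⟨s, hs⟩
  apply hstep k s hs
  have := congrArg Subtype.val hk
  simpa using this

/-- An element normalizing a cyclic Sylow subgroup and fixing a nonidentity element centralizes it. -/
theorem centralizes_of_fix (P : Sylow p G) (hc : IsCyclic (P : Subgroup G)) {x : G}
    (hx : x ∈ Subgroup.normalizer ((P : Subgroup G) : Set G)) {a : G}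
    (ha : a ∈ (P : Subgroup G)) (ha1 : a ≠ 1) (hfix : x * a * x⁻¹ = a) :
    ∀ s ∈ (P : Subgroup G), x * s * x⁻¹ = s := by
  have hpp := hp.out
  obtain ⟨u, hu⟩ := Cfsg.Agent.Lib.BlkOrth.exists_isPPart hpp x
  obtain ⟨N, hN⟩ := Cfsg.Agent.Lib.BlkOrth.pPart_exists_pow hpp hu
  obtain ⟨y, hxy, hcom, ⟨k, hk⟩, hy⟩ := hu
  have huN : u ∈ Subgroup.normalizer ((P : Subgroup G) : Set G) := by
    rw [← hN]
    exact pow_mem hx N
  have huP : u ∈ (P : Subgroup G) :=
    mem_of_pelement_normalizer P huN (k := k) (by rw [← hk]; exact pow_orderOf_eq_one u)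
  have hyN : y ∈ Subgroup.normalizer ((P : Subgroup G) : Set G) := by
    have : y = u⁻¹ * x := by rw [← hxy]; group
    rw [this]
    exact mul_mem (inv_mem huN) hx
  have hcomm : ∀ a ∈ (P : Subgroup G), ∀ z ∈ (P : Subgroup G), a * z = z * a :=
    fun x hx z hz => comm_of_cyclic hc hx hz
  have hyfix : y * a * y⁻¹ = a := by
    have h1 : x * a * x⁻¹ = u * (y * a * y⁻¹) * u⁻¹ := by
      rw [← hxy]; group
    rw [hfix] at h1
    have h2 : y * a * y⁻¹ = u⁻¹ * a * u := by
      calc y * a * y⁻¹ = u⁻¹ * (u * (y * a * y⁻¹) * u⁻¹) * u := by group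
        _ = u⁻¹ * a * u := by rw [← h1]
    rw [h2, mul_assoc, hcomm a ha u huP]
    group
  have h3 := centralizes_of_fix_coprime P hc hyN hy ha ha1 hyfix
  intro s hs
  have h4 : x * s * x⁻¹ = u * (y * s * y⁻¹) * u⁻¹ := by
    rw [← hxy]; group
  rw [h4, h3 s hs, hcomm u huP s hs]
  group

/-- Conjugates of a Sylow subgroup: `x P x⁻¹ ≤ P` implies `x` normalizes `P`. -/
theorem mem_normalizer_of_conj_le (P : Subgroup G) {x : G} (h : ∀ s ∈ P, x * s * x⁻¹ ∈ P) :
    x ∈ Subgroup.normalizer (P : Set G) := by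
  have hle : P.map (MulAut.conj x).toMonoidHom ≤ P := by
    rintro _ ⟨s, hs, rfl⟩
    exact h s hs
  have hcard : Nat.card (P.map (MulAut.conj x).toMonoidHom) = Nat.card P :=
    Subgroup.card_map_of_injective (MulAut.conj x).injective
  have heq : P.map (MulAut.conj x).toMonoidHom = P :=
    Subgroup.eq_of_le_of_card_ge hle hcard.ge
  rw [Subgroup.mem_normalizer_iff]
  intro y
  refine ⟨h y, fun hy => ?_⟩
  rw [← heq] at hy
  obtain ⟨s, hs, e⟩ := hy
  have : s = y := by
    have e' : x * s * x⁻¹ = x * y * x⁻¹ := e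
    have h1 := mul_right_cancel e'
    exact mul_left_cancel h1
  rw [← this]
  exact hs

/-- Burnside's fusion lemma for an abelian Sylow subgroup. -/
theorem exists_normalizer_conj (P : Sylow p G) (hc : IsCyclic (P : Subgroup G)) {a b : G}
    (ha : a ∈ (P : Subgroup G)) (hb : b ∈ (P : Subgroup G)) (h : IsConj a b) :
    ∃ x ∈ Subgroup.normalizer ((P : Subgroup G) : Set G), x * a * x⁻¹ = b := by
  obtain ⟨h₀, hh⟩ := isConj_iff.mp h
  have hcomm : ∀ a ∈ (P : Subgroup G), ∀ z ∈ (P : Subgroup G), a * z = z * a :=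
    fun x hx z hz => comm_of_cyclic hc hx hz
  set C := Subgroup.centralizer ({b} : Set G) with hC
  have hPC : (P : Subgroup G) ≤ C := by
    intro s hs
    rw [hC, Subgroup.mem_centralizer_iff]
    intro w hw
    rw [show w = b from hw]
    exact hcomm b hb s hs
  set T := (P : Subgroup G).map (MulAut.conj h₀).toMonoidHom with hT
  have hTC : T ≤ C := by
    rintro _ ⟨s, hs, rfl⟩
    rw [hC, Subgroup.mem_centralizer_iff]
    intro w hw
    rw [show w = b from hw, ← hh]
    show h₀ * a * h₀⁻¹ * (h₀ * s * h₀⁻¹) = h₀ * s * h₀⁻¹ * (h₀ * a * h₀⁻¹)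
    have : a * s = s * a := hcomm a ha s hs
    calc h₀ * a * h₀⁻¹ * (h₀ * s * h₀⁻¹) = h₀ * (a * s) * h₀⁻¹ := by group
      _ = h₀ * (s * a) * h₀⁻¹ := by rw [this]
      _ = _ := by group
  have hTp : IsPGroup p T := P.isPGroup'.map _
  obtain ⟨k, hkC, hk⟩ := Cfsg.Agent.Lib.SylowConjLemmas.exists_conj_mem_of_le P C hPC T hTp hTC
  refine ⟨k * h₀, ?_, ?_⟩
  · apply mem_normalizer_of_conj_le
    intro s hs
    have := hk (h₀ * s * h₀⁻¹) ⟨s, hs, rfl⟩
    have e : k * h₀ * s * (k * h₀)⁻¹ = k * (h₀ * s * h₀⁻¹) * k⁻¹ := by group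
    rw [e]
    exact this
  · have hkb : k * b = b * k := by
      have := Subgroup.mem_centralizer_iff.mp hkC b rfl
      exact this.symm
    calc k * h₀ * a * (k * h₀)⁻¹ = k * (h₀ * a * h₀⁻¹) * k⁻¹ := by group
      _ = k * b * k⁻¹ := by rw [hh]
      _ = b := by rw [hkb]; group

/-- The centralizer of a nonidentity element of a cyclic Sylow subgroup is `p`-nilpotent. -/
theorem hasNormalPComplement_centralizer (P : Sylow p G) (hc : IsCyclic (P : Subgroup G)) {a : G}
    (ha : a ∈ (P : Subgroup G)) (ha1 : a ≠ 1) :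
    HasNormalPComplement p ↥(Subgroup.centralizer ({a} : Set G)) := by
  set H := Subgroup.centralizer ({a} : Set G) with hH
  have hcomm : ∀ a ∈ (P : Subgroup G), ∀ z ∈ (P : Subgroup G), a * z = z * a :=
    fun x hx z hz => comm_of_cyclic hc hx hz
  have hPH : (P : Subgroup G) ≤ H := by
    intro s hs
    rw [hH, Subgroup.mem_centralizer_iff]
    intro w hw
    rw [show w = a from hw]
    exact hcomm a ha s hs
  let S : Sylow p H := P.subtype hPH
  have hS : (S : Subgroup H) = (P : Subgroup G).subgroupOf H := Sylow.coe_subtype _ _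
  have hnc : Subgroup.normalizer ((S : Subgroup H) : Set H) ≤ Subgroup.centralizer ((S : Subgroup H) : Set H) := by
    intro z hz
    rw [Subgroup.mem_centralizer_iff]
    intro w hw
    have hwP : (w : G) ∈ (P : Subgroup G) := by
      have : w ∈ (S : Subgroup H) := hw
      rw [hS] at this
      exact Subgroup.mem_subgroupOf.mp this
    have hzN : (z : G) ∈ Subgroup.normalizer ((P : Subgroup G) : Set G) := by
      apply mem_normalizer_of_conj_le
      intro s hs
      have h1 : (⟨s, hPH hs⟩ : H) ∈ (S : Subgroup H) := by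
        rw [hS]
        exact Subgroup.mem_subgroupOf.mpr hs
      have h2 := (Subgroup.mem_normalizer_iff.mp hz _).mp h1
      rw [hS] at h2
      exact Subgroup.mem_subgroupOf.mp h2
    have hzfix : (z : G) * a * (z : G)⁻¹ = a := by
      have := Subgroup.mem_centralizer_iff.mp z.2 a rfl
      rw [← this]
      group
    have h3 := centralizes_of_fix P hc hzN ha ha1 hzfix (w : G) hwP
    apply Subtype.ext
    show (w : G) * (z : G) = (z : G) * (w : G)
    calc (w : G) * (z : G) = ((z : G) * (w : G) * (z : G)⁻¹) * (z : G) := by rw [h3]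
      _ = (z : G) * (w : G) := by group
  exact ⟨S, (MonoidHom.transferSylow S hnc).ker, inferInstance,
    (MonoidHom.ker_transferSylow_isComplement' S hnc)⟩

end Cfsg.Agent.Lib.CycSylow
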