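import Mathlib
import Cfsg.Agent.Lib.CycSylow

/-!
# Finite groups with a cyclic Sylow subgroup: the exponent map
-/

set_option autoImplicit false
set_option linter.unusedSectionVars false
set_option linter.unusedVariables false

open Cfsg
open scoped ComplexConjugate

namespace Cfsg.Agent.Lib.CycSylow

open Cfsg.Agent.Lib.CycArith Cfsg.Agent.Lib.CycArith2

universe u

/-- A cyclic Sylow subgroup with a generator. -/
structure CSData (p n : ℕ) [NeZero n] (G : Type u) [Group G] [Finite G] [Fact p.Prime] where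
  P : Sylow p G
  cyc : IsCyclic (P : Subgroup G)
  g : G
  g_mem : g ∈ (P : Subgroup G)
  g_gen : ∀ x ∈ (P : Subgroup G), ∃ k : ℕ, g ^ k = x
  order : orderOf g = n
  a : ℕ
  hn : n = p ^ a
  ha : 1 ≤ a

namespace CSData

variable {p n : ℕ} [NeZero n] {G : Type u} [Group G] [Finite G] [hp : Fact p.Prime]
  (C : CSData p n G)

/-- The exponent map. -/
def el (i : ZMod n) : G := C.g ^ i.val

theorem el_natCast (k : ℕ) : C.el (k : ZMod n) = C.g ^ k := by
  unfold el
  rw [ZMod.val_natCast]
  have := pow_mod_orderOf C.g k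
  rwa [C.order] at this

theorem el_zero : C.el 0 = 1 := by
  unfold el
  rw [ZMod.val_zero, pow_zero]

theorem el_one : C.el 1 = C.g := by
  have := C.el_natCast 1
  simpa using this

theorem el_add (i j : ZMod n) : C.el (i + j) = C.el i * C.el j := by
  have h := C.el_natCast (i.val + j.val)
  rw [pow_add] at h
  push_cast at h
  rw [ZMod.natCast_zmod_val, ZMod.natCast_zmod_val] at h
  exact h

theorem el_pow (i : ZMod n) (m : ℕ) : C.el i ^ m = C.el ((m : ZMod n) * i) := by
  have h := C.el_natCast (i.val * m)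
  rw [pow_mul] at h
  push_cast at h
  rw [ZMod.natCast_zmod_val, mul_comm] at h
  exact h.symm

theorem el_neg (i : ZMod n) : C.el (-i) = (C.el i)⁻¹ := by
  rw [eq_inv_iff_mul_eq_one, ← el_add, neg_add_cancel, el_zero]

theorem el_inj {i j : ZMod n} (h : C.el i = C.el j) : i = j := by
  unfold el at h
  rw [pow_eq_pow_iff_modEq, C.order] at h
  have h1 := (ZMod.natCast_eq_natCast_iff _ _ _).mpr h
  rwa [ZMod.natCast_zmod_val, ZMod.natCast_zmod_val] at h1

theorem el_eq_one {i : ZMod n} : C.el i = 1 ↔ i = 0 := by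
  constructor
  · intro h
    apply C.el_inj
    rw [h, el_zero]
  · rintro rfl
    exact C.el_zero

theorem el_ne_one {i : ZMod n} (hi : i ≠ 0) : C.el i ≠ 1 := fun h => hi (C.el_eq_one.mp h)

theorem el_mem (i : ZMod n) : C.el i ∈ (C.P : Subgroup G) := pow_mem C.g_mem _

theorem exists_el {x : G} (hx : x ∈ (C.P : Subgroup G)) : ∃ i : ZMod n, C.el i = x := by
  obtain ⟨k, hk⟩ := C.g_gen x hx
  exact ⟨(k : ZMod n), by rw [C.el_natCast, hk]⟩

theorem el_orderOf_pow (i : ZMod n) : ∃ k : ℕ, orderOf (C.el i) = p ^ k := by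
  obtain ⟨k, hk⟩ := C.P.isPGroup' ⟨C.el i, C.el_mem i⟩
  have h1 : C.el i ^ p ^ k = 1 := by
    have := congrArg Subtype.val hk
    simpa using this
  obtain ⟨j, _, hj⟩ := (Nat.dvd_prime_pow hp.out).mp (orderOf_dvd_of_pow_eq_one h1)
  exact ⟨j, hj⟩

theorem orderOf_el {i : ZMod n} (hi : i ≠ 0) (hip : (p : ZMod n) * i = 0) : orderOf (C.el i) = p := by
  apply orderOf_eq_prime
  · rw [C.el_pow, hip, C.el_zero]
  · exact C.el_ne_one hi

theorem conj_el {h : G} {k : ZMod n} (hk : h * C.g * h⁻¹ = C.el k) (i : ZMod n) :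
    h * C.el i * h⁻¹ = C.el (k * i) := by
  unfold el
  rw [← conj_pow]
  rw [hk, C.el_pow, ZMod.natCast_zmod_val, mul_comm]
  rfl

theorem card_P : Nat.card (C.P : Subgroup G) = n := by
  have h : Subgroup.zpowers C.g = (C.P : Subgroup G) := by
    apply le_antisymm
    · rw [Subgroup.zpowers_le]
      exact C.g_mem
    · intro x hx
      obtain ⟨k, hk⟩ := C.g_gen x hx
      rw [← hk]
      exact pow_mem (Subgroup.mem_zpowers _) k
  rw [← h, Nat.card_zpowers, C.order]

/-- The multipliers. -/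
noncomputable def W : Finset (ZMod n) := by
  classical exact Finset.univ.filter (fun k => IsConj C.g (C.el k))

theorem mem_W {k : ZMod n} : k ∈ C.W ↔ IsConj C.g (C.el k) := by
  classical
  simp [W]

theorem exists_conj_of_mem_W {k : ZMod n} (hk : k ∈ C.W) :
    ∃ x ∈ Subgroup.normalizer ((C.P : Subgroup G) : Set G), x * C.g * x⁻¹ = C.el k :=
  exists_normalizer_conj C.P C.cyc C.g_mem (C.el_mem k) (C.mem_W.mp hk)

theorem fusion {i j : ZMod n} (h : IsConj (C.el i) (C.el j)) : ∃ k ∈ C.W, j = k * i := by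
  obtain ⟨x, hx, hxi⟩ := exists_normalizer_conj C.P C.cyc (C.el_mem i) (C.el_mem j) h
  have hm : x * C.g * x⁻¹ ∈ (C.P : Subgroup G) := (Subgroup.mem_normalizer_iff.mp hx _).mp C.g_mem
  obtain ⟨k, hk⟩ := C.exists_el hm
  refine ⟨k, C.mem_W.mpr (isConj_iff.mpr ⟨x, hk.symm⟩), ?_⟩
  apply C.el_inj
  rw [← C.conj_el hk.symm i, hxi]

theorem fusion' {i k : ZMod n} (hk : k ∈ C.W) : IsConj (C.el i) (C.el (k * i)) := by
  obtain ⟨h, hh⟩ := isConj_iff.mp (C.mem_W.mp hk)
  exact isConj_iff.mpr ⟨h, C.conj_el hh i⟩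

theorem wdata : WData C.W where
  one_mem := by
    rw [mem_W, el_one]
  mul_mem := by
    intro k hk k' hk'
    rw [mem_W] at *
    obtain ⟨h, hh⟩ := isConj_iff.mp hk
    exact hk'.trans (isConj_iff.mpr ⟨h, C.conj_el hh k'⟩)
  inj := by
    intro k hk x y hxy
    obtain ⟨h, hh⟩ := isConj_iff.mp (C.mem_W.mp hk)
    apply C.el_inj
    have h1 := C.conj_el hh x
    have h2 := C.conj_el hh y
    rw [hxy, ← h2] at h1
    have h3 := mul_right_cancel h1
    exact mul_left_cancel h3
  free := by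
    intro k hk i hi hki
    obtain ⟨x, hx, hxg⟩ := C.exists_conj_of_mem_W hk
    have h1 := C.conj_el hxg i
    rw [hki] at h1
    have h2 := centralizes_of_fix C.P C.cyc hx (C.el_mem i) (C.el_ne_one hi) h1 C.g C.g_mem
    rw [hxg, ← C.el_one] at h2
    exact C.el_inj h2

theorem centralizer_complement {i : ZMod n} (hi : i ≠ 0) :
    HasNormalPComplement p ↥(Subgroup.centralizer ({C.el i} : Set G)) :=
  hasNormalPComplement_centralizer C.P C.cyc (C.el_mem i) (C.el_ne_one hi)

/-- The complement in the centralizer, with the right index. -/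
theorem exists_complement {i : ZMod n} (hi : i ≠ 0) :
    ∃ N : Subgroup ↥(Subgroup.centralizer ({C.el i} : Set G)), N.Normal ∧ ¬ p ∣ Nat.card N ∧
      N.index = p ^ C.a := by
  have hc := C.centralizer_complement hi
  set H := Subgroup.centralizer ({C.el i} : Set G) with hH
  obtain ⟨S, N, hNn, hNc⟩ := hc
  refine ⟨N, hNn, ?_, ?_⟩
  · rw [← hNc.index_eq_card]
    exact S.not_dvd_index
  · have hPH : (C.P : Subgroup G) ≤ H := by
      intro s hs
      rw [hH, Subgroup.mem_centralizer_iff]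
      intro w hw
      rw [show w = C.el i from hw]
      exact comm_of_cyclic C.cyc (C.el_mem i) hs
    have hcardS : Nat.card (S : Subgroup H) = Nat.card (C.P : Subgroup G) := by
      have h1 : Nat.card (S : Subgroup H) = Nat.card ((C.P.subtype hPH : Sylow p H) : Subgroup H) :=
        Nat.card_congr (Sylow.equiv S (C.P.subtype hPH)).toEquiv
      rw [h1, Sylow.coe_subtype]
      exact Nat.card_congr (Subgroup.subgroupOfEquivOfLe hPH).toEquiv
    rw [hNc.symm.index_eq_card, hcardS, C.card_P]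
    exact C.hn

end CSData

end Cfsg.Agent.Lib.CycSylow
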