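import Mathlib
import Cfsg.Agent.Lib.CycSylow2

/-!
# Finite groups with a cyclic Sylow subgroup: pairs of elements of order `p`
-/

set_option autoImplicit false
set_option linter.unusedSectionVars false
set_option linter.unusedVariables false

open Cfsg
open scoped ComplexConjugate

namespace Cfsg.Agent.Lib.CycSylow

open Cfsg.Agent.Lib.CycArith Cfsg.Agent.Lib.CycArith2 Cfsg.Agent.Lib.PCore Cfsg.Agent.Lib.PConstr
open Cfsg.Agent.Lib.SingConst

universe u

section Abstract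

variable {Y Q : Type*} [Group Y] [Finite Y] [Group Q] {p : ℕ} [hp : Fact p.Prime]

/-- The `p`-parts of elements of a group which is a `p'`-group by a group of order `p`. -/
theorem sec_abstract (π : Y →* Q) (a' : Y) (ha' : orderOf a' = p)
    (h1 : ∀ y, π y = 1 → ¬ p ∣ orderOf y) (h3 : ∀ y, ∃ r : ℕ, π y = π a' ^ r)
    (y : Y) (t : ℕ) (hy : π y = π a' ^ t) :
    (p ∣ t → ¬ p ∣ orderOf y) ∧ (¬ p ∣ t → ∃ x q : Y, IsPPart p y x ∧ q * x * q⁻¹ = a' ^ t) := by
  have hpp := hp.out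
  have hap : π a' ^ p = 1 := by
    rw [← map_pow, ← ha', pow_orderOf_eq_one, map_one]
  constructor
  · rintro ⟨c, rfl⟩
    apply h1
    rw [hy, pow_mul, hap, one_pow]
  · intro ht
    obtain ⟨x, hx⟩ := Cfsg.Agent.Lib.BlkOrth.exists_isPPart hpp y
    obtain ⟨w, hxw, hcom, ⟨k, hk⟩, hw⟩ := id hx
    have hπw : π w = 1 := by
      obtain ⟨r, hr⟩ := h3 w
      have h5 : π w ^ p = 1 := by
        rw [hr, ← pow_mul, mul_comm, pow_mul, hap, one_pow]
      have h6 : orderOf (π w) ∣ p := orderOf_dvd_of_pow_eq_one h5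
      have h7 : orderOf (π w) ∣ orderOf w := orderOf_map_dvd π w
      have h8 : (orderOf w).Coprime p := ((Nat.Prime.coprime_iff_not_dvd hpp).mpr hw).symm
      exact orderOf_eq_one_iff.mp (Nat.eq_one_of_dvd_coprimes h8 h7 h6)
    have hπx : π x = π a' ^ t := by
      rw [← hy, ← hxw, map_mul, hπw, mul_one]
    have hz : IsPGroup p (Subgroup.zpowers a') :=
      Cfsg.Agent.Lib.LocalBalance2.isPGroup_zpowers_of_ppow (k := 1)
        (by rw [pow_one, ← ha', pow_orderOf_eq_one])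
    obtain ⟨T, hT⟩ := hz.exists_le_sylow
    have hzx : IsPGroup p (Subgroup.zpowers x) :=
      Cfsg.Agent.Lib.LocalBalance2.isPGroup_zpowers_of_ppow (k := k)
        (by rw [← hk, pow_orderOf_eq_one])
    obtain ⟨q, hq⟩ := Cfsg.Agent.Lib.SylowConjLemmas.exists_conj_mem T (Subgroup.zpowers x) hzx
    have hqx := hq x (Subgroup.mem_zpowers x)
    refine ⟨x, q, hx, ?_⟩
    set z := (q * x * q⁻¹) * (a' ^ t)⁻¹ with hzdef
    have hzT : z ∈ (T : Subgroup Y) :=
      mul_mem hqx (inv_mem (pow_mem (hT (Subgroup.mem_zpowers a')) t))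
    have hπz : π z = 1 := by
      obtain ⟨r, hr⟩ := h3 q
      have hc : (π a' ^ r) * (π a' ^ t) = (π a' ^ t) * (π a' ^ r) :=
        (Commute.refl (π a')).pow_pow r t
      simp only [hzdef, map_mul, map_inv, map_pow, hπx, hr]
      rw [hc]
      group
    have hzo := h1 z hπz
    have hz1 : z = 1 := eq_one_of_mem_of_coprime T.isPGroup' hzT
      (((Nat.Prime.coprime_iff_not_dvd hpp).mpr hzo).symm)
    exact mul_inv_eq_one.mp hz1

end Abstract

namespace CSData

variable {p n : ℕ} [NeZero n] {G : Type u} [Group G] [Finite G] [hp : Fact p.Prime]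
  (C : CSData p n G)

include C in
/-- All `p`-subgroups of subgroups are cyclic. -/
theorem isCyclic_of_pgroup {X : Subgroup G} (S : Subgroup X) (hS : IsPGroup p S) : IsCyclic S := by
  have hT : IsPGroup p (S.map X.subtype) := hS.map _
  obtain ⟨g, hg⟩ := Cfsg.Agent.Lib.SylowConjLemmas.exists_conj_mem C.P _ hT
  have := C.cyc
  let f : S →* (C.P : Subgroup G) :=
    ((MulAut.conj g).toMonoidHom.comp (X.subtype.comp S.subtype)).codRestrict _ (by
      intro s
      exact hg _ ⟨s, s.2, rfl⟩)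
  apply isCyclic_of_injective f
  intro s s' h
  have h1 := congrArg Subtype.val h
  have h2 : g * ((s : X) : G) * g⁻¹ = g * ((s' : X) : G) * g⁻¹ := h1
  have h3 := mul_left_cancel (mul_right_cancel h2)
  exact Subtype.ext (Subtype.ext h3)

theorem isPPart_coe {X : Subgroup G} {y x : X} (h : IsPPart p y x) : IsPPart p (y : G) (x : G) := by
  obtain ⟨w, h1, h2, ⟨k, hk⟩, h4⟩ := h
  refine ⟨(w : G), ?_, ?_, ⟨k, ?_⟩, ?_⟩
  · rw [← h1]; rfl
  · have := congrArg Subtype.val h2.eq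
    exact this
  · rw [Subgroup.orderOf_coe, hk]
  · rwa [Subgroup.orderOf_coe]

include C in
/-- The structure of a `p`-solvable subgroup generated by two elements of order `p`. -/
theorem pair_data0 {a' v : G} (ha : orderOf a' = p) (hv : orderOf v = p)
    (hsol : IsPSolvable p ↥(Subgroup.closure ({a', v} : Set G))) :
    ∃ s : ℕ, ¬ p ∣ s ∧ (∀ r κ : ℕ, p ∣ r + κ * s → ¬ p ∣ orderOf (a' ^ r * v ^ κ)) ∧
      (∀ r : ℕ, ¬ p ∣ r + s → ∃ x : G, IsPPart p (a' ^ r * v) x ∧ IsConj x (a' ^ (r + s))) := by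
  have hpp := hp.out
  set X := Subgroup.closure ({a', v} : Set G) with hX
  have haX : a' ∈ X := Subgroup.subset_closure (Or.inl rfl)
  have hvX : v ∈ X := Subgroup.subset_closure (Or.inr rfl)
  let a₁ : X := ⟨a', haX⟩
  let v₁ : X := ⟨v, hvX⟩
  have hao : orderOf a₁ = p := by rw [Subgroup.orderOf_mk, ha]
  have hvo : orderOf v₁ = p := by rw [Subgroup.orderOf_mk, hv]
  have hab' : ∀ S : Sylow p X, ∀ a ∈ (S : Subgroup X), ∀ b ∈ (S : Subgroup X), a * b = b * a := by
    intro S a ha' b hb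
    exact comm_of_cyclic (C.isCyclic_of_pgroup (S : Subgroup X) S.isPGroup') ha' hb
  have hm1 := mk_mem_pCore (p := p) X hsol hab' a₁ ⟨1, by rw [pow_one, ← hao]; exact pow_orderOf_eq_one _⟩
  have hm2 := mk_mem_pCore (p := p) X hsol hab' v₁ ⟨1, by rw [pow_one, ← hvo]; exact pow_orderOf_eq_one _⟩
  set N := pPrimeCore p X with hN
  let π : X →* X ⧸ N := QuotientGroup.mk' N
  have hπs : Function.Surjective π := QuotientGroup.mk'_surjective N
  have h1 : ∀ y, π y = 1 → ¬ p ∣ orderOf y := by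
    intro y hy h
    have h2 : y ∈ N := (QuotientGroup.eq_one_iff y).mp hy
    have h3 := orderOf_coprime_of_mem_pPrimeCore h2
    have h4 : p ∣ Nat.gcd (orderOf y) p := Nat.dvd_gcd h dvd_rfl
    rw [h3] at h4
    exact hpp.one_lt.ne' (Nat.dvd_one.mp h4)
  have hord : ∀ y : X, orderOf y = p → orderOf (π y) = p := by
    intro y hy
    have hyp : y ^ p = 1 := by
      rw [← hy]; exact pow_orderOf_eq_one y
    apply orderOf_eq_prime
    · rw [← map_pow, hyp, map_one]
    · intro h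
      exact h1 y h (by rw [hy])
  obtain ⟨S⟩ : Nonempty (Sylow p X) := inferInstance
  have hSc : IsCyclic (S : Subgroup X) := C.isCyclic_of_pgroup (S : Subgroup X) S.isPGroup'
  let Sb : Sylow p (X ⧸ N) := S.mapSurjective hπs
  have hSbc : IsCyclic (Sb : Subgroup (X ⧸ N)) := by
    have h3 : (Sb : Subgroup (X ⧸ N)) = (S : Subgroup X).map π := Sylow.coe_mapSurjective hπs S
    rw [h3]
    exact isCyclic_of_surjective (π.subgroupMap (S : Subgroup X)) (π.subgroupMap_surjective _)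
  have hm1' : π a₁ ∈ (Sb : Subgroup (X ⧸ N)) := pCore_le_sylow p _ hm1
  have hm2' : π v₁ ∈ (Sb : Subgroup (X ⧸ N)) := pCore_le_sylow p _ hm2
  obtain ⟨s, hs⟩ : ∃ s : ℕ, π v₁ = π a₁ ^ s := by
    have heq : Subgroup.zpowers (⟨π v₁, hm2'⟩ : (Sb : Subgroup (X ⧸ N))) =
        Subgroup.zpowers (⟨π a₁, hm1'⟩ : (Sb : Subgroup (X ⧸ N))) := by
      apply Cfsg.Agent.Lib.OddPGroup.eq_of_card_of_isCyclic
      rw [Nat.card_zpowers, Nat.card_zpowers, Subgroup.orderOf_mk, Subgroup.orderOf_mk, hord _ hvo,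
        hord _ hao]
    have hmem : (⟨π v₁, hm2'⟩ : (Sb : Subgroup (X ⧸ N))) ∈
        Subgroup.zpowers (⟨π a₁, hm1'⟩ : (Sb : Subgroup (X ⧸ N))) := by
      rw [← heq]
      exact Subgroup.mem_zpowers _
    obtain ⟨s, hs⟩ := (mem_powers_iff_mem_zpowers).mpr hmem
    refine ⟨s, ?_⟩
    have := congrArg Subtype.val hs
    simpa using this.symm
  have hap0 : a₁ ^ p = 1 := by
    rw [← hao]; exact pow_orderOf_eq_one _
  have hap : π a₁ ^ p = 1 := by
    rw [← map_pow, hap0, map_one]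
  have h3 : ∀ y, ∃ r : ℕ, π y = π a₁ ^ r := by
    rintro ⟨g, hg⟩
    induction hg using Subgroup.closure_induction with
    | mem x hx =>
      rcases hx with rfl | rfl
      · exact ⟨1, by rw [pow_one]⟩
      · exact ⟨s, hs⟩
    | one =>
      exact ⟨0, by rw [pow_zero]; exact map_one π⟩
    | mul x y hx hy ihx ihy =>
      obtain ⟨r, hr⟩ := ihx
      obtain ⟨r', hr'⟩ := ihy
      refine ⟨r + r', ?_⟩
      have : (⟨x * y, mul_mem hx hy⟩ : X) = ⟨x, hx⟩ * ⟨y, hy⟩ := rfl
      rw [this, map_mul, hr, hr', pow_add]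
    | inv x hx ihx =>
      obtain ⟨r, hr⟩ := ihx
      refine ⟨r * (p - 1), ?_⟩
      have : (⟨x⁻¹, inv_mem hx⟩ : X) = (⟨x, hx⟩ : X)⁻¹ := rfl
      rw [this, map_inv, hr, inv_eq_iff_mul_eq_one, ← pow_add]
      have e : r + r * (p - 1) = r * p := by
        have : p = (p - 1) + 1 := by
          have := hpp.one_le
          omega
        calc r + r * (p - 1) = r * ((p - 1) + 1) := by ring
          _ = r * p := by rw [← this]
      rw [e, mul_comm, pow_mul, hap, one_pow]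
  have hs0 : ¬ p ∣ s := by
    rintro ⟨c, rfl⟩
    have : π v₁ = 1 := by rw [hs, pow_mul, hap, one_pow]
    exact h1 v₁ this (by rw [hvo])
  refine ⟨s, hs0, ?_, ?_⟩
  · intro r κ hrκ
    have hy : π (a₁ ^ r * v₁ ^ κ) = π a₁ ^ (r + κ * s) := by
      rw [map_mul, map_pow, map_pow, hs, ← pow_mul, pow_add, mul_comm s κ]
    have h4 := (sec_abstract π a₁ hao h1 h3 _ _ hy).1 hrκ
    rwa [← Subgroup.orderOf_coe] at h4
  · intro r hr
    have hy : π (a₁ ^ r * v₁) = π a₁ ^ (r + s) := by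
      rw [map_mul, map_pow, hs, pow_add]
    obtain ⟨x, q, hx, hq⟩ := (sec_abstract π a₁ hao h1 h3 _ _ hy).2 hr
    refine ⟨(x : G), isPPart_coe hx, isConj_iff.mpr ⟨(q : G), ?_⟩⟩
    have := congrArg Subtype.val hq
    exact this

end CSData

end Cfsg.Agent.Lib.CycSylow
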