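import Mathlib
import Cfsg.Agent.Lib.CycSylow3
import Cfsg.Agent.S0942

/-!
# Finite groups with a cyclic Sylow subgroup: the principal block
-/

set_option autoImplicit false
set_option linter.unusedSectionVars false
set_option linter.unusedVariables false

open Cfsg
open scoped ComplexConjugate

namespace Cfsg.Agent.Lib.CycSylow

open Cfsg.Agent.Lib.CycArith Cfsg.Agent.Lib.CycArith2 Cfsg.Agent.Lib.PCore Cfsg.Agent.Lib.PConstr
open Cfsg.Agent.Lib.SingConst Cfsg.Agent.Lib.CharBasic Cfsg.Agent.Lib.BlockNormal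
open Cfsg.Agent.Lib.BlockIdem Cfsg.Agent.Lib.BlockLocal

universe u

section Arith

variable {p n : ℕ} [NeZero n] [hp : Fact p.Prime]

theorem eq_zero_of_coprime_mul {x : ZMod n} (hx : (p : ZMod n) * x = 0) {t : ℕ} (ht : ¬ p ∣ t)
    (h : (t : ZMod n) * x = 0) : x = 0 := by
  have hc : Nat.Coprime t p := ((Nat.Prime.coprime_iff_not_dvd hp.out).mpr ht).symm
  have h1 := Nat.gcd_eq_gcd_ab t p
  rw [hc.gcd_eq_one] at h1
  have h2 : ((1 : ℤ) : ZMod n) = (((t : ℤ) * Nat.gcdA t p + (p : ℤ) * Nat.gcdB t p : ℤ) : ZMod n) := by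
    rw [← h1]
    rfl
  push_cast at h2
  calc x = 1 * x := (one_mul x).symm
    _ = ((t : ZMod n) * (Nat.gcdA t p : ZMod n) + (p : ZMod n) * (Nat.gcdB t p : ZMod n)) * x := by rw [h2]
    _ = (Nat.gcdA t p : ZMod n) * ((t : ZMod n) * x) + (Nat.gcdB t p : ZMod n) * ((p : ZMod n) * x) := by ring
    _ = 0 := by rw [h, hx, mul_zero, mul_zero, add_zero]

theorem natCast_mul_eq_zero_iff {a : ZMod n} (ha0 : a ≠ 0) (hap : (p : ZMod n) * a = 0) (t : ℕ) :
    (t : ZMod n) * a = 0 ↔ p ∣ t := by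
  constructor
  · intro h
    by_contra ht
    exact ha0 (eq_zero_of_coprime_mul hap ht h)
  · rintro ⟨c, rfl⟩
    push_cast
    calc (p : ZMod n) * (c : ZMod n) * a = (c : ZMod n) * ((p : ZMod n) * a) := by ring
      _ = 0 := by rw [hap, mul_zero]

theorem exists_nat_mul {e : ℕ} (hn : n = p ^ e) (he : 1 ≤ e) {a : ZMod n} (ha0 : a ≠ 0)
    (hap : (p : ZMod n) * a = 0) {u : ZMod n} (hu : (p : ZMod n) * u = 0) :
    ∃ r : ℕ, u = (r : ZMod n) * a := by
  have hsub : (Finset.range p).image (fun r : ℕ => (r : ZMod n) * a) ⊆ A1 p n := by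
    intro x hx
    obtain ⟨r, _, rfl⟩ := Finset.mem_image.mp hx
    rw [mem_A1, mul_left_comm, hap, mul_zero]
  have hinj : Set.InjOn (fun r : ℕ => (r : ZMod n) * a) (Finset.range p : Set ℕ) := by
    have key : ∀ r₁ r₂ : ℕ, r₁ ≤ r₂ → r₂ < p → (r₁ : ZMod n) * a = (r₂ : ZMod n) * a → r₁ = r₂ := by
      intro r₁ r₂ hle hlt h
      have h1 : ((r₂ - r₁ : ℕ) : ZMod n) * a = 0 := by
        rw [Nat.cast_sub hle, sub_mul, ← h, sub_self]
      have h2 := (natCast_mul_eq_zero_iff ha0 hap _).mp h1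
      by_contra hne
      have h3 := Nat.le_of_dvd (by omega) h2
      omega
    intro r₁ h₁ r₂ h₂ h
    have h₁' : r₁ < p := Finset.mem_range.mp h₁
    have h₂' : r₂ < p := Finset.mem_range.mp h₂
    rcases le_total r₁ r₂ with hle | hle
    · exact key r₁ r₂ hle h₂' h
    · exact (key r₂ r₁ hle h₁' h.symm).symm
  have heq : (Finset.range p).image (fun r : ℕ => (r : ZMod n) * a) = A1 p n := by
    apply Finset.eq_of_subset_of_card_le hsub
    rw [card_A1 hn he, Finset.card_image_of_injOn hinj, Finset.card_range]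
  have hm : u ∈ (Finset.range p).image (fun r : ℕ => (r : ZMod n) * a) := by
    rw [heq, mem_A1]
    exact hu
  obtain ⟨r, _, hr⟩ := Finset.mem_image.mp hm
  exact ⟨r, hr.symm⟩

end Arith

namespace CSData

section Pair

variable {p n : ℕ} [NeZero n] {G : Type u} [Group G] [Finite G] [hp : Fact p.Prime]
  (C : CSData p n G)

/-- The structure of a pair. -/
structure PairProp (v : G) (l : ZMod n) : Prop where
  hp0 : (p : ZMod n) * l = 0
  h0 : l ≠ 0
  hpow : ∀ κ : ℕ, ¬ p ∣ orderOf (C.el (-((κ : ZMod n) * l)) * v ^ κ)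
  hreg : ∀ u : ZMod n, (p : ZMod n) * u = 0 → u + l = 0 → ¬ p ∣ orderOf (C.el u * v)
  hsing : ∀ u : ZMod n, (p : ZMod n) * u = 0 → u + l ≠ 0 →
    ∃ x : G, IsPPart p (C.el u * v) x ∧ IsConj x (C.el (u + l))
  hconj : IsConj v (C.el l)
  huniq : ∀ u : ZMod n, (p : ZMod n) * u = 0 → ¬ p ∣ orderOf (C.el (-u) * v) → u = l

theorem pair_prop {a : ZMod n} (ha0 : a ≠ 0) (hap : (p : ZMod n) * a = 0) {v : G}
    (hv : orderOf v = p)
    (hsol : IsPSolvable p ↥(Subgroup.closure ({C.el a, v} : Set G))) :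
    ∃ l : ZMod n, C.PairProp v l := by
  have hpp := hp.out
  obtain ⟨s, hs0, h1, h2⟩ := C.pair_data0 (C.orderOf_el ha0 hap) hv hsol
  set l : ZMod n := (s : ZMod n) * a with hl
  have hl0 : l ≠ 0 := fun h => hs0 ((natCast_mul_eq_zero_iff ha0 hap s).mp h)
  have hlp : (p : ZMod n) * l = 0 := by
    rw [hl, mul_left_comm, hap, mul_zero]
  have hsing : ∀ u : ZMod n, (p : ZMod n) * u = 0 → u + l ≠ 0 →
      ∃ x : G, IsPPart p (C.el u * v) x ∧ IsConj x (C.el (u + l)) := by
    intro u hu hu0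
    obtain ⟨r, rfl⟩ := exists_nat_mul C.hn C.ha ha0 hap hu
    have hrs : ¬ p ∣ r + s := by
      intro hd
      apply hu0
      have := (natCast_mul_eq_zero_iff ha0 hap (r + s)).mpr hd
      rw [hl, ← add_mul]
      push_cast at this
      exact this
    obtain ⟨x, hx1, hx2⟩ := h2 r hrs
    refine ⟨x, ?_, ?_⟩
    · rw [← C.el_pow]
      exact hx1
    · rw [hl, ← add_mul]
      have e := C.el_pow a (r + s)
      push_cast at e
      rw [← e]
      exact hx2
  have hreg : ∀ u : ZMod n, (p : ZMod n) * u = 0 → u + l = 0 → ¬ p ∣ orderOf (C.el u * v) := by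
    intro u hu hu0
    obtain ⟨r, rfl⟩ := exists_nat_mul C.hn C.ha ha0 hap hu
    have hrs : p ∣ r + 1 * s := by
      apply (natCast_mul_eq_zero_iff ha0 hap (r + 1 * s)).mp
      rw [one_mul]
      push_cast
      rw [add_mul]
      exact hu0
    have h3 := h1 r 1 hrs
    rw [pow_one] at h3
    rw [← C.el_pow]
    exact h3
  have hconj : IsConj v (C.el l) := by
    obtain ⟨x, hx1, hx2⟩ := hsing 0 (mul_zero _) (by rwa [zero_add])
    rw [C.el_zero, one_mul] at hx1
    have hvp : IsPPart p v v := Cfsg.Agent.Lib.BlkOrth.isPPart_self ⟨1, by rw [pow_one, hv]⟩ hpp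
    have := Cfsg.Agent.Lib.BlkOrth.pPart_unique hpp hx1 hvp
    rw [this, zero_add] at hx2
    exact hx2
  refine ⟨l, hlp, hl0, ?_, hreg, hsing, hconj, ?_⟩
  · intro κ
    have hr : p ∣ (p - 1) * (κ * s) + κ * s := by
      have : (p - 1) * (κ * s) + κ * s = p * (κ * s) := by
        have h3 : p = (p - 1) + 1 := by
          have := hpp.one_le
          omega
        calc (p - 1) * (κ * s) + κ * s = ((p - 1) + 1) * (κ * s) := by ring
          _ = p * (κ * s) := by rw [← h3]
      rw [this]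
      exact dvd_mul_right _ _
    have h3 := h1 _ κ hr
    have e : C.el a ^ ((p - 1) * (κ * s)) = C.el (-((κ : ZMod n) * l)) := by
      rw [C.el_pow]
      congr 1
      rw [Nat.cast_mul, Nat.cast_sub hpp.one_le, hl]
      push_cast
      calc ((p : ZMod n) - 1) * ((κ : ZMod n) * (s : ZMod n)) * a =
          (κ : ZMod n) * (s : ZMod n) * ((p : ZMod n) * a) - (κ : ZMod n) * ((s : ZMod n) * a) := by ring
        _ = _ := by rw [hap, mul_zero, zero_sub]
    rw [e] at h3
    exact h3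
  · intro u hu hreg'
    by_contra hne
    have hu' : (p : ZMod n) * (-u) = 0 := by
      rw [mul_neg, hu, neg_zero]
    have hne' : -u + l ≠ 0 := by
      intro h
      apply hne
      have : u = l := by
        have h3 : l = u := by
          rw [neg_add_eq_sub, sub_eq_zero] at h
          exact h
        exact h3.symm
      exact this
    obtain ⟨x, hx1, hx2⟩ := hsing _ hu' hne'
    have hx : x = 1 := (Cfsg.Agent.Lib.BlkOrth.pPart_regular_iff hpp hx1).mp hreg'
    rw [hx] at hx2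
    have h4 : C.el (-u + l) = 1 := by
      obtain ⟨c, hc⟩ := isConj_iff.mp hx2
      rw [← hc]
      group
    exact hne' (C.el_eq_one.mp h4)

end Pair

end CSData

end Cfsg.Agent.Lib.CycSylow
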