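import Mathlib
import Cfsg.Agent.Lib.CycSylow4

/-!
# Finite groups with a cyclic Sylow subgroup: the principal block, values on the Sylow subgroup
-/

set_option autoImplicit false
set_option linter.unusedSectionVars false
set_option linter.unusedVariables false

open Cfsg
open scoped ComplexConjugate

namespace Cfsg.Agent.Lib.CycSylow

open Cfsg.Agent.Lib.CycArith Cfsg.Agent.Lib.CycArith2 Cfsg.Agent.Lib.PCore Cfsg.Agent.Lib.PConstr
open Cfsg.Agent.Lib.SingConst Cfsg.Agent.Lib.CharBasic Cfsg.Agent.Lib.BlockNormal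
open Cfsg.Agent.Lib.BlockIdem Cfsg.Agent.Lib.BlockLocal

universe u

namespace CSData

section Block

variable {p n : ℕ} [NeZero n] {G : Type u} [Group G] [Fintype G] [hp : Fact p.Prime]
  (C : CSData p n G) {M : Ideal AlgInt}

omit [NeZero n] in
theorem char_conj (χ : IrrCharacter G) {x y : G} (h : IsConj x y) :
    (χ : G → ℂ) x = (χ : G → ℂ) y := by
  obtain ⟨c, hc⟩ := isConj_iff.mp h
  rw [← hc]
  exact (isClassFunction_of_isCharacter (IsIrrCharacter.isCharacter χ.2) x c).symm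

theorem sec (hM : IsPModular p M) {i : ZMod n} (hi : i ≠ 0) {s : G}
    (hs : s ∈ Subgroup.centralizer ({C.el i} : Set G)) (hso : ¬ p ∣ orderOf s) (χ : IrrCharacter G)
    (hχ : χ ∈ principalBlock M G) : (χ : G → ℂ) (C.el i * s) = (χ : G → ℂ) (C.el i) := by
  obtain ⟨N, hNn, hN, hidx⟩ := C.exists_complement hi
  haveI := hNn
  have hcore := mem_pPrimeCore_of_coprime N hN C.a hidx (u := ⟨s, hs⟩) (by rwa [Subgroup.orderOf_mk])
  exact Cfsg.Agent.S0942.result p M hM (C.el i) (C.el_orderOf_pow i) s ⟨⟨s, hs⟩, hcore, rfl⟩ χ hχ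

include C in
/-- Characters of the principal block are constant on `p`-sections. -/
theorem sec' (hM : IsPModular p M) {y x : G} (h : IsPPart p y x) (hx1 : x ≠ 1) (χ : IrrCharacter G)
    (hχ : χ ∈ principalBlock M G) : (χ : G → ℂ) y = (χ : G → ℂ) x := by
  obtain ⟨w, hxw, hcom, ⟨k, hk⟩, hw⟩ := h
  have hz : IsPGroup p (Subgroup.zpowers x) :=
    Cfsg.Agent.Lib.LocalBalance2.isPGroup_zpowers_of_ppow (k := k)
      (by rw [← hk, pow_orderOf_eq_one])
  obtain ⟨c, hc⟩ := Cfsg.Agent.Lib.SylowConjLemmas.exists_conj_mem C.P (Subgroup.zpowers x) hz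
  have hcx := hc x (Subgroup.mem_zpowers x)
  obtain ⟨i, hi⟩ := C.exists_el hcx
  have hi0 : i ≠ 0 := by
    rintro rfl
    rw [C.el_zero] at hi
    apply hx1
    have : x = c⁻¹ * (c * x * c⁻¹) * c := by group
    rw [this, ← hi]
    group
  set s := c * w * c⁻¹ with hs
  have hsmem : s ∈ Subgroup.centralizer ({C.el i} : Set G) := by
    rw [Subgroup.mem_centralizer_iff]
    intro t ht
    rw [show t = C.el i from ht, hi, hs]
    calc c * x * c⁻¹ * (c * w * c⁻¹) = c * (x * w) * c⁻¹ := by group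
      _ = c * (w * x) * c⁻¹ := by rw [hcom.eq]
      _ = c * w * c⁻¹ * (c * x * c⁻¹) := by group
  have hso : ¬ p ∣ orderOf s := by
    have : orderOf w = orderOf s := SemiconjBy.orderOf_eq c (show c * w = c * w * c⁻¹ * c by group)
    rwa [← this]
  have h1 := C.sec hM hi0 hsmem hso χ hχ
  have h2 : C.el i * s = c * y * c⁻¹ := by
    rw [hi, hs, ← hxw]
    group
  rw [h2, hi] at h1
  have e1 : IsConj y (c * y * c⁻¹) := isConj_iff.mpr ⟨c, rfl⟩
  have e2 : IsConj x (c * x * c⁻¹) := isConj_iff.mpr ⟨c, rfl⟩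
  rw [char_conj χ e1, h1]
  exact (char_conj χ e2).symm

theorem norm_eq (hM : IsPModular p M) {i : ZMod n} (hi : i ≠ 0) :
    ∑ χ ∈ B₀ M G, (χ : G → ℂ) (C.el i) * conj ((χ : G → ℂ) (C.el i)) = n := by
  obtain ⟨N, hNn, hN, hidx⟩ := C.exists_complement hi
  haveI := hNn
  letI : Fintype (Subgroup.centralizer ({C.el i} : Set G)) := Fintype.ofFinite _
  have h1 := Cfsg.Agent.Lib.BlockSection.sum_principal_norm (G := G)
    (H := Subgroup.centralizer ({C.el i} : Set G)) hM (z := C.el i) (C.el_orderOf_pow i) rfl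
  rw [finsum_B₀] at h1
  rw [h1, sum_principal_deg_sq hM N hN C.a hidx, hidx]
  have := C.hn
  exact_mod_cast this.symm

theorem orth (hM : IsPModular p M) {i i' : ZMod n} (hi : i ≠ 0) (hi' : i' ≠ 0) :
    ∑ χ ∈ B₀ M G, (χ : G → ℂ) (C.el i) * conj ((χ : G → ℂ) (C.el i')) = FF C.W i i' := by
  unfold FF
  by_cases h : i' ∈ C.W.image (fun k => k * i)
  · rw [if_pos ⟨hi, h⟩]
    obtain ⟨k, hk, rfl⟩ := Finset.mem_image.mp h
    rw [← C.norm_eq hM hi]
    refine Finset.sum_congr rfl fun χ _ => ?_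
    rw [char_conj χ (C.fusion' (i := i) hk)]
  · rw [if_neg (fun h' => h h'.2)]
    have hnc : ¬ IsConj (C.el i) (C.el i') := by
      intro hc
      obtain ⟨k, hk, rfl⟩ := C.fusion hc
      exact h (Finset.mem_image.mpr ⟨k, hk, rfl⟩)
    have h1 := Cfsg.Agent.Lib.BlockSection.sum_block_pelement_eq_zero hM (C.el_orderOf_pow i)
      (C.el_orderOf_pow i') hnc (isPBlock_principalBlock M)
    rw [finsum_B₀] at h1
    exact h1

/-- Orthogonality to `p`-regular elements. -/
theorem orth_reg (hM : IsPModular p M) {i : ZMod n} (hi : i ≠ 0) {g : G} (hg : ¬ p ∣ orderOf g) :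
    ∑ χ ∈ B₀ M G, (χ : G → ℂ) g * conj ((χ : G → ℂ) (C.el i)) = 0 := by
  have h1 := sum_reg hM (C.el_orderOf_pow i) (C.el_ne_one hi) hg
  have h2 := congrArg conj h1
  rw [map_sum, map_zero] at h2
  rw [← h2]
  refine Finset.sum_congr rfl fun χ _ => ?_
  rw [map_mul, Complex.conj_conj, mul_comm]

theorem orth_deg (hM : IsPModular p M) {i : ZMod n} (hi : i ≠ 0) :
    ∑ χ ∈ B₀ M G, (charDegree (χ : G → ℂ) : ℂ) * conj ((χ : G → ℂ) (C.el i)) = 0 := by
  have h1 := C.orth_reg hM hi (g := 1) (by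
    rw [orderOf_one]
    exact fun h => hp.out.one_lt.ne' (Nat.dvd_one.mp h))
  rw [← h1]
  refine Finset.sum_congr rfl fun χ _ => ?_
  rw [Cfsg.Agent.Lib.CharKernel.one_eq_charDegree (IsIrrCharacter.isCharacter χ.2)]

/-- The class sum applied at an element. -/
theorem sum_class (x b : G) (χ : IrrCharacter G) [DecidablePred (IsConj b)] :
    ∑ l ∈ Finset.univ.filter (IsConj b), (χ : G → ℂ) (x * l) =
      (Finset.univ.filter (IsConj b)).card * (χ : G → ℂ) x * (χ : G → ℂ) b / (χ : G → ℂ) 1 := by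
  classical
  have hχ := IsIrrCharacter.isCharacter χ.2
  let e : G → ℂ := fun l => if IsConj b l then 1 else 0
  have he : IsClassFunction G e := by
    intro g h
    simp only [e]
    have : IsConj b (h * g * h⁻¹) ↔ IsConj b g := by
      constructor
      · intro h1
        exact h1.trans (isConj_iff.2 ⟨h⁻¹, by group⟩)
      · intro h1
        exact h1.trans (isConj_iff.2 ⟨h, rfl⟩)
    simp only [this]
  have h1 := Cfsg.Agent.Lib.BlockSecond.sum_class_mul_irr he χ x
  have h2 : ∑ l : G, e l * (χ : G → ℂ) (x * l) =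
      ∑ l ∈ Finset.univ.filter (IsConj b), (χ : G → ℂ) (x * l) := by
    rw [Finset.sum_filter]
    refine Finset.sum_congr rfl fun l _ => ?_
    simp only [e]
    split_ifs <;> simp
  rw [← h2, h1]
  have h3 : ∑ g : G, e g * (χ : G → ℂ) g = (Finset.univ.filter (IsConj b)).card * (χ : G → ℂ) b := by
    have h4 : ∑ g : G, e g * (χ : G → ℂ) g = ∑ l ∈ Finset.univ.filter (IsConj b), (χ : G → ℂ) b := by
      rw [Finset.sum_filter]
      refine Finset.sum_congr rfl fun l _ => ?_
      simp only [e]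
      split_ifs with h
      · obtain ⟨a, ha⟩ := isConj_iff.1 h
        rw [← ha, one_mul]
        exact isClassFunction_of_isCharacter hχ b a
      · simp
    rw [h4, Finset.sum_const, nsmul_eq_mul]
  rw [Cfsg.Agent.Lib.BlockIdem.omega, h3]
  ring

end Block

end CSData

end Cfsg.Agent.Lib.CycSylow
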