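import Mathlib
import Cfsg.Agent.Lib.CycSylow5

/-!
# Finite groups with a cyclic Sylow subgroup: the block data
-/

set_option autoImplicit false
set_option linter.unusedSectionVars false
set_option linter.unusedVariables false

open Cfsg
open scoped ComplexConjugate

namespace Cfsg.Agent.Lib.CycSylow

open Cfsg.Agent.Lib.CycArith Cfsg.Agent.Lib.CycArith2 Cfsg.Agent.Lib.PCore Cfsg.Agent.Lib.PConstr
open Cfsg.Agent.Lib.SingConst Cfsg.Agent.Lib.CharBasic Cfsg.Agent.Lib.BlockNormal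
open Cfsg.Agent.Lib.BlockIdem Cfsg.Agent.Lib.BlockLocal

universe u

namespace CSData

section Mu

variable {p n : ℕ} [NeZero n] {G : Type u} [Group G] [Fintype G] [hp : Fact p.Prime]
  (C : CSData p n G) {M : Ideal AlgInt}

theorem exists_mu (χ : IrrCharacter G) (j : ZMod n) :
    ∃ m : ℕ, ∑ i : ZMod n, (χ : G → ℂ) (C.el i) * ee (-(i * j)) = (n : ℂ) * m := by
  classical
  letI : Fintype (C.P : Subgroup G) := Fintype.ofFinite _
  let E : ZMod n ≃ (C.P : Subgroup G) := Equiv.ofBijective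
    (fun x => (⟨C.el x, C.el_mem x⟩ : (C.P : Subgroup G)))
    ⟨fun x y hxy => C.el_inj (congrArg Subtype.val hxy),
      fun y => by
        obtain ⟨i, hi⟩ := C.exists_el y.2
        exact ⟨i, Subtype.ext hi⟩⟩
  have hE : ∀ x, ((E x : (C.P : Subgroup G)) : G) = C.el x := fun x => rfl
  have hadd : ∀ x y, E (x + y) = E x * E y := fun x y => Subtype.ext (C.el_add x y)
  have hne : ∀ x : ZMod n, ee x ≠ 0 := by
    intro x h
    have := norm_ee x
    rw [h, norm_zero] at this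
    exact zero_ne_one this
  let ψ : (C.P : Subgroup G) →* ℂˣ :=
    { toFun := fun y => Units.mk0 (ee (E.symm y * j)) (hne _)
      map_one' := by
        apply Units.ext
        have h1 : E 0 = 1 := Subtype.ext C.el_zero
        have h2 : E.symm 1 = 0 := by rw [← h1, Equiv.symm_apply_apply]
        simp [h2, ee_zero]
      map_mul' := by
        intro y y'
        apply Units.ext
        obtain ⟨x, rfl⟩ := E.surjective y
        obtain ⟨x', rfl⟩ := E.surjective y'
        rw [← hadd]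
        simp only [Equiv.symm_apply_apply, Units.val_mk0, Units.val_mul]
        rw [← ee_add]
        congr 1
        ring }
  have hψ : IsIrrCharacter (C.P : Subgroup G) (fun g => ((ψ g : ℂˣ) : ℂ)) := isIrrCharacter_of_hom ψ
  obtain ⟨m, hm⟩ := classInner_char_char
    (isCharacter_restrict (C.P : Subgroup G) (IsIrrCharacter.isCharacter χ.2))
    (IsIrrCharacter.isCharacter hψ)
  refine ⟨m, ?_⟩
  unfold Cfsg.classInner at hm
  rw [C.card_P] at hm
  have h1 : ∑ g : (C.P : Subgroup G), (χ : G → ℂ) g * conj ((ψ g : ℂˣ) : ℂ) =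
      ∑ i : ZMod n, (χ : G → ℂ) (C.el i) * ee (-(i * j)) := by
    rw [← E.sum_comp]
    refine Finset.sum_congr rfl fun i _ => ?_
    rw [hE]
    congr 1
    have : ((ψ (E i) : ℂˣ) : ℂ) = ee (i * j) := by
      simp [ψ]
    rw [this, conj_ee]
  rw [h1] at hm
  have hn0 : (n : ℂ) ≠ 0 := by
    have : n ≠ 0 := NeZero.ne n
    exact_mod_cast this
  rw [← hm, mul_inv_cancel_left₀ hn0]

/-- Fourier inversion. -/
theorem f_expand' (f : ZMod n → ℂ) (μ : ZMod n → ℕ)
    (h : ∀ j, ∑ i : ZMod n, f i * ee (-(i * j)) = (n : ℂ) * μ j) (i : ZMod n) :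
    f i = ∑ j, (μ j : ℂ) * ee (i * j) := by
  have hn0 : (n : ℂ) ≠ 0 := by
    have : n ≠ 0 := NeZero.ne n
    exact_mod_cast this
  apply mul_left_cancel₀ hn0
  rw [Finset.mul_sum]
  have h1 : ∀ j, (n : ℂ) * ((μ j : ℂ) * ee (i * j)) =
      ∑ i' : ZMod n, f i' * ee (-(i' * j)) * ee (i * j) := by
    intro j
    rw [← mul_assoc, ← h j, Finset.sum_mul]
  simp only [h1]
  rw [Finset.sum_comm]
  have h2 : ∀ i' : ZMod n, ∑ j : ZMod n, f i' * ee (-(i' * j)) * ee (i * j) =
      f i' * (if i - i' = 0 then (n : ℂ) else 0) := by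
    intro i'
    rw [← sum_ee (i - i'), Finset.mul_sum]
    refine Finset.sum_congr rfl fun j _ => ?_
    rw [mul_assoc, ← ee_add]
    congr 2
    ring
  simp only [h2]
  rw [Finset.sum_eq_single i]
  · simp [mul_comm]
  · intro b _ hb
    rw [if_neg, mul_zero]
    intro e
    exact hb (sub_eq_zero.mp e).symm
  · simp

end Mu

section Cubic

variable {p n : ℕ} [NeZero n] {G : Type u} [Group G] [Fintype G] [hp : Fact p.Prime]
  (C : CSData p n G) {M : Ideal AlgInt}

/-- The fundamental count. -/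
theorem sum_section (hM : IsPModular p M) {v : G} {l a i' : ZMod n} (hv : C.PairProp v l)
    (hap : (p : ZMod n) * a = 0) (hi' : i' ≠ 0) :
    ∑ χ ∈ B₀ M G, (χ : G → ℂ) (C.el a * v) * conj ((χ : G → ℂ) (C.el i')) = FF C.W (a + l) i' := by
  classical
  by_cases h0 : a + l = 0
  · rw [C.orth_reg hM hi' (hv.hreg a hap h0), h0]
    unfold FF
    rw [if_neg (fun h => h.1 rfl)]
  · obtain ⟨x, hx1, hx2⟩ := hv.hsing a hap h0
    have hxne : x ≠ 1 := by
      rintro rfl
      have h4 : C.el (a + l) = 1 := by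
        obtain ⟨c, hc⟩ := isConj_iff.mp hx2
        rw [← hc]
        group
      exact h0 (C.el_eq_one.mp h4)
    rw [← C.orth hM h0 hi']
    refine Finset.sum_congr rfl fun χ hχ => ?_
    rw [C.sec' hM hx1 hxne χ (mem_B₀.mp hχ), char_conj χ hx2]

/-- The sum over a conjugacy class, expressed through the multipliers. -/
theorem sum_L {b : ZMod n} (hb0 : b ≠ 0) (hpb : (p : ZMod n) * b = 0)
    [DecidablePred (IsConj (C.el b))]
    (L : G → ZMod n) (hL : ∀ v ∈ Finset.univ.filter (IsConj (C.el b)), C.PairProp v (L v))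
    (F : ZMod n → ℂ) :
    (C.W.card : ℂ) * ∑ v ∈ Finset.univ.filter (IsConj (C.el b)), F (L v) =
      ((Finset.univ.filter (IsConj (C.el b))).card : ℂ) * ∑ k ∈ C.W, F (k * b) := by
  classical
  have hW := C.wdata
  set K := Finset.univ.filter (IsConj (C.el b)) with hK
  have hmemK : ∀ {v : G}, v ∈ K ↔ IsConj (C.el b) v := by
    intro v
    simp [hK]
  have hop : ∀ v ∈ K, orderOf v = p := by
    intro v hv
    obtain ⟨c, hc⟩ := isConj_iff.mp (hmemK.mp hv)
    rw [← hc]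
    exact (SemiconjBy.orderOf_eq c (show c * C.el b = c * C.el b * c⁻¹ * c by group)).symm.trans
      (C.orderOf_el hb0 hpb)
  have hpow : ∀ k ∈ C.W, ∀ v ∈ K, v ^ k.val ∈ K := by
    intro k hk v hv
    rw [hmemK]
    have h1 := (hmemK.mp hv).pow k.val
    rw [C.el_pow, ZMod.natCast_zmod_val] at h1
    exact (C.fusion' hk).trans h1
  have hLpow : ∀ k ∈ C.W, ∀ v ∈ K, L (v ^ k.val) = k * L v := by
    intro k hk v hv
    have h1 := (hL v hv).hpow k.val
    rw [ZMod.natCast_zmod_val] at h1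
    have h2 := (hL _ (hpow k hk v hv)).huniq (k * L v)
      (by rw [mul_left_comm, (hL v hv).hp0, mul_zero]) h1
    exact h2.symm
  have hinv : ∀ k ∈ C.W, ∀ k' ∈ C.W, k' * k = 1 → ∀ v ∈ K, (v ^ k.val) ^ k'.val = v := by
    intro k hk k' hk' hkk v hv
    have h1 : (k.val * k'.val : ℕ) ≡ 1 [MOD p] := by
      have h2 : ((k.val * k'.val : ℕ) : ZMod n) = ((1 : ℕ) : ZMod n) := by
        push_cast
        rw [ZMod.natCast_zmod_val, ZMod.natCast_zmod_val, mul_comm, hkk]
      have h3 := (ZMod.natCast_eq_natCast_iff _ _ _).mp h2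
      have hd : p ∣ n := by
        rw [C.hn]
        exact dvd_pow_self p (by have := C.ha; omega)
      exact h3.of_dvd hd
    rw [← pow_mul]
    have h4 : v ^ (k.val * k'.val) = v ^ 1 := by
      rw [pow_eq_pow_iff_modEq, hop v hv]
      exact h1
    rw [h4, pow_one]
  have hinv' : ∀ k ∈ C.W, ∃ k' ∈ C.W, k' * k = 1 ∧ k * k' = 1 := by
    intro k hk
    obtain ⟨k', hk', e⟩ := hW.exists_inv hk
    exact ⟨k', hk', e, by rw [mul_comm]; exact e⟩
  have hshift : ∀ k ∈ C.W, ∑ v ∈ K, F (L v) = ∑ v ∈ K, F (k * L v) := by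
    intro k hk
    obtain ⟨k', hk', e1, e2⟩ := hinv' k hk
    refine Finset.sum_nbij' (fun v => v ^ k'.val) (fun v => v ^ k.val) (hpow k' hk') (hpow k hk)
      (fun v hv => hinv k' hk' k hk e2 v hv) (fun v hv => hinv k hk k' hk' e1 v hv) ?_
    intro v hv
    rw [hLpow k' hk' v hv, ← mul_assoc, e2, one_mul]
  have h1 : (C.W.card : ℂ) * ∑ v ∈ K, F (L v) = ∑ k ∈ C.W, ∑ v ∈ K, F (L v) := by
    rw [Finset.sum_const, nsmul_eq_mul]
  have h2 : ∑ k ∈ C.W, ∑ v ∈ K, F (L v) = ∑ v ∈ K, ∑ k ∈ C.W, F (k * L v) := by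
    calc ∑ k ∈ C.W, ∑ v ∈ K, F (L v) = ∑ k ∈ C.W, ∑ v ∈ K, F (k * L v) :=
          Finset.sum_congr rfl fun k hk => hshift k hk
      _ = _ := Finset.sum_comm
  rw [h1, h2, ← nsmul_eq_mul, ← Finset.sum_const]
  refine Finset.sum_congr rfl fun v hv => ?_
  obtain ⟨k₁, hk₁, e⟩ := C.fusion ((hmemK.mp hv).trans (hL v hv).hconj)
  rw [e, ← hW.sum_mul_left hk₁ (fun k => F (k * b))]
  refine Finset.sum_congr rfl fun k _ => ?_
  congr 1
  ring

/-- The cubic identity of the block data. -/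
theorem cubic' (hM : IsPModular p M)
    (hpairs : ∀ x y : G, orderOf x = p → orderOf y = p →
      IsPSolvable p ↥(Subgroup.closure ({x, y} : Set G)))
    {a b i' : ZMod n} (hap : (p : ZMod n) * a = 0) (hpb : (p : ZMod n) * b = 0) (ha0 : a ≠ 0)
    (hb0 : b ≠ 0) (hi' : i' ≠ 0) :
    (C.W.card : ℂ) * ∑ χ ∈ B₀ M G, (χ : G → ℂ) (C.el a) * (χ : G → ℂ) (C.el b) *
        conj ((χ : G → ℂ) (C.el i')) / (charDegree (χ : G → ℂ) : ℂ) =
      ∑ k ∈ C.W, FF C.W (a + k * b) i' := by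
  classical
  set K := Finset.univ.filter (IsConj (C.el b)) with hK
  have hmemK : ∀ {v : G}, v ∈ K ↔ IsConj (C.el b) v := by
    intro v
    simp [hK]
  have hop : ∀ v ∈ K, orderOf v = p := by
    intro v hv
    obtain ⟨c, hc⟩ := isConj_iff.mp (hmemK.mp hv)
    rw [← hc]
    exact (SemiconjBy.orderOf_eq c (show c * C.el b = c * C.el b * c⁻¹ * c by group)).symm.trans
      (C.orderOf_el hb0 hpb)
  have hex : ∀ v ∈ K, ∃ l, C.PairProp v l := fun v hv =>
    C.pair_prop ha0 hap (hop v hv) (hpairs _ _ (C.orderOf_el ha0 hap) (hop v hv))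
  choose! L hL using hex
  have hKpos : (K.card : ℂ) ≠ 0 := by
    have : K.card ≠ 0 := Finset.card_ne_zero.mpr ⟨C.el b, hmemK.mpr (IsConj.refl _)⟩
    exact_mod_cast this
  have h3 : ∑ v ∈ K, ∑ χ ∈ B₀ M G, (χ : G → ℂ) (C.el a * v) * conj ((χ : G → ℂ) (C.el i')) =
      ∑ v ∈ K, FF C.W (a + L v) i' :=
    Finset.sum_congr rfl fun v hv => C.sum_section hM (hL v hv) hap hi'
  have h4 : ∑ v ∈ K, ∑ χ ∈ B₀ M G, (χ : G → ℂ) (C.el a * v) * conj ((χ : G → ℂ) (C.el i')) =
      (K.card : ℂ) * ∑ χ ∈ B₀ M G, (χ : G → ℂ) (C.el a) * (χ : G → ℂ) (C.el b) *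
        conj ((χ : G → ℂ) (C.el i')) / (charDegree (χ : G → ℂ) : ℂ) := by
    rw [Finset.sum_comm, Finset.mul_sum]
    refine Finset.sum_congr rfl fun χ _ => ?_
    rw [← Finset.sum_mul, hK, sum_class,
      Cfsg.Agent.Lib.CharKernel.one_eq_charDegree (IsIrrCharacter.isCharacter χ.2)]
    ring
  have h5 := C.sum_L hb0 hpb L hL (fun u => FF C.W (a + u) i')
  apply mul_left_cancel₀ hKpos
  rw [← h5, mul_left_comm, ← h4, h3]

end Cubic

end CSData

end Cfsg.Agent.Lib.CycSylow
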