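import Mathlib
import Cfsg.Agent.Lib.CycSylow6
import Cfsg.Agent.Lib.CycArith3
import Cfsg.Agent.S1951

/-!
# Finite simple groups with a cyclic Sylow subgroup: the contradiction
-/

set_option autoImplicit false
set_option linter.unusedSectionVars false
set_option linter.unusedVariables false

open Cfsg
open scoped ComplexConjugate

namespace Cfsg.Agent.Lib.CycSylow

open Cfsg.Agent.Lib.CycArith Cfsg.Agent.Lib.CycArith2 Cfsg.Agent.Lib.PCore Cfsg.Agent.Lib.PConstr
open Cfsg.Agent.Lib.SingConst Cfsg.Agent.Lib.CharBasic Cfsg.Agent.Lib.BlockNormal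
open Cfsg.Agent.Lib.BlockIdem Cfsg.Agent.Lib.BlockLocal

universe u

namespace CSData

section Simple

variable {p n : ℕ} [NeZero n] {G : Type u} [Group G] [Fintype G] [hp : Fact p.Prime]
  (C : CSData p n G) {M : Ideal AlgInt}

include C in
/-- A nontrivial class function value at the degree: only the trivial character of a simple group. -/
theorem ker_ne [IsSimpleGroup G] (χ : IrrCharacter G) (hne : χ ≠ irrOne G) {x : G} (hx : x ≠ 1) :
    (χ : G → ℂ) x ≠ (charDegree (χ : G → ℂ) : ℂ) := by
  intro hcd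
  have hchar := IsIrrCharacter.isCharacter χ.2
  have hone := Cfsg.Agent.Lib.CharKernel.one_eq_charDegree hchar
  have hker : x ∈ Cfsg.Agent.Lib.CharKernel.charKer hchar := by
    rw [Cfsg.Agent.Lib.CharKernel.mem_charKer, hcd, hone]
  have htop : Cfsg.Agent.Lib.CharKernel.charKer hchar = ⊤ := by
    rcases IsSimpleGroup.eq_bot_or_eq_top_of_normal (Cfsg.Agent.Lib.CharKernel.charKer hchar)
      (Cfsg.Agent.Lib.CharKernel.charKer_normal hchar) with h | h
    · rw [h, Subgroup.mem_bot] at hker
      exact absurd hker hx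
    · exact h
  have hconst : ∀ g : G, (χ : G → ℂ) g = (charDegree (χ : G → ℂ) : ℂ) := by
    intro g
    have : g ∈ Cfsg.Agent.Lib.CharKernel.charKer hchar := by rw [htop]; trivial
    rw [Cfsg.Agent.Lib.CharKernel.mem_charKer] at this
    rw [this, hone]
  have hinner := classInner_irr_self χ.2
  unfold Cfsg.classInner at hinner
  have h5 : ∑ g : G, (χ : G → ℂ) g * conj ((χ : G → ℂ) g) =
      (Nat.card G : ℂ) * (charDegree (χ : G → ℂ) : ℂ) ^ 2 := by
    simp only [hconst, map_natCast, Finset.sum_const, Finset.card_univ,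
      ← Nat.card_eq_fintype_card, nsmul_eq_mul]
    ring
  rw [h5, ← mul_assoc, inv_mul_cancel₀ natCard_ne_zero', one_mul] at hinner
  have hd1 : charDegree (χ : G → ℂ) = 1 := by
    have : (charDegree (χ : G → ℂ) : ℕ) ^ 2 = 1 := by exact_mod_cast hinner
    exact (Nat.pow_eq_one.mp this).resolve_right (by norm_num)
  apply hne
  apply Subtype.ext
  funext g
  rw [hconst, hd1]
  simp [irrOne]

theorem exists_bd [IsSimpleGroup G] (hM : IsPModular p M)
    (hpairs : ∀ x y : G, orderOf x = p → orderOf y = p →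
      IsPSolvable p ↥(Subgroup.closure ({x, y} : Set G))) :
    Nonempty (BD p n C.W (IrrCharacter G)) := by
  classical
  haveI := isPrime_of_isPModular hM
  have hμ := C.exists_mu
  choose μ hμ using hμ
  have hn0 : (n : ℂ) ≠ 0 := by
    have : n ≠ 0 := NeZero.ne n
    exact_mod_cast this
  refine ⟨⟨B₀ M G, irrOne G, fun χ i => (χ : G → ℂ) (C.el i), fun χ => charDegree (χ : G → ℂ), μ,
    mem_B₀.mpr (irrOne_mem_principalBlock M), ?_, ?_, ?_, ?_, ?_, ?_, ?_, ?_, ?_⟩⟩
  · intro χ i
    exact f_expand' _ (μ χ) (hμ χ) i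
  · intro χ
    show (χ : G → ℂ) (C.el 0) = _
    rw [C.el_zero]
    exact Cfsg.Agent.Lib.CharKernel.one_eq_charDegree (IsIrrCharacter.isCharacter χ.2)
  · intro χ _
    exact Cfsg.Agent.Lib.CharKernel.charDegree_pos χ.2
  · intro χ k hk i
    exact (char_conj χ (C.fusion' hk)).symm
  · intro j
    have h1 := hμ (irrOne G) j
    have h2 : ∑ i : ZMod n, ((irrOne G : IrrCharacter G) : G → ℂ) (C.el i) * ee (-(i * j)) =
        ∑ i : ZMod n, ee (-(i * j)) := by
      refine Finset.sum_congr rfl fun i _ => ?_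
      simp [irrOne]
    rw [h2, sum_ee_neg] at h1
    split_ifs at h1 ⊢ with hj
    · have h3 : (μ (irrOne G) j : ℂ) = 1 := (mul_left_cancel₀ hn0 (by rw [← h1, mul_one])).symm
      exact_mod_cast h3
    · have h3 : (μ (irrOne G) j : ℂ) = 0 := by
        rcases mul_eq_zero.mp h1.symm with h | h
        · exact absurd h hn0
        · exact h
      exact_mod_cast h3
  · intro i i' hi hi'
    exact C.orth hM hi hi'
  · intro i hi
    exact C.orth_deg hM hi
  · intro a b i' hap hpb ha0 hb0 hi'
    exact C.cubic' hM hpairs hap hpb ha0 hb0 hi'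
  · intro χ hχ hne i hi
    exact C.ker_ne χ hne (C.el_ne_one hi)

include C in
theorem g_ne_one : C.g ≠ 1 := by
  intro h
  have h1 := C.order
  rw [h, orderOf_one, C.hn] at h1
  have h2 : p ∣ p ^ C.a := dvd_pow_self p (by have := C.ha; omega)
  rw [← h1] at h2
  exact hp.out.one_lt.ne' (Nat.dvd_one.mp h2)

theorem two_le_card [IsSimpleGroup G] (hG : ¬ IsMulCommutative G) : 2 ≤ C.W.card := by
  by_contra h
  have hW1 : ∀ k ∈ C.W, k = 1 := by
    intro k hk
    have hc : C.W.card ≤ 1 := by omega
    exact Finset.card_le_one.mp hc k hk 1 C.wdata.one_mem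
  have hcomm : ∀ x ∈ (C.P : Subgroup G), ∀ z ∈ (C.P : Subgroup G), x * z = z * x :=
    fun x hx z hz => comm_of_cyclic C.cyc hx hz
  have hnc : Subgroup.normalizer ((C.P : Subgroup G) : Set G) ≤
      Subgroup.centralizer ((C.P : Subgroup G) : Set G) := by
    intro x hx
    have hm : x * C.g * x⁻¹ ∈ (C.P : Subgroup G) := (Subgroup.mem_normalizer_iff.mp hx _).mp C.g_mem
    obtain ⟨k, hk⟩ := C.exists_el hm
    have hkW : k ∈ C.W := C.mem_W.mpr (isConj_iff.mpr ⟨x, hk.symm⟩)
    rw [hW1 k hkW, C.el_one] at hk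
    have h2 := centralizes_of_fix C.P C.cyc hx C.g_mem C.g_ne_one hk.symm
    rw [Subgroup.mem_centralizer_iff]
    intro s hs
    have h3 := h2 s hs
    calc s * x = x * s * x⁻¹ * x := by rw [h3]
      _ = x * s := by group
  have hcompl := MonoidHom.ker_transferSylow_isComplement' C.P hnc
  rcases IsSimpleGroup.eq_bot_or_eq_top_of_normal
      (MonoidHom.transferSylow C.P hnc).ker (MonoidHom.normal_ker _) with hk | hk
  · rw [hk, Subgroup.isComplement'_bot_left] at hcompl
    apply hG
    refine ⟨⟨fun a b => ?_⟩⟩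
    exact hcomm a (by rw [hcompl]; trivial) b (by rw [hcompl]; trivial)
  · rw [hk, Subgroup.isComplement'_top_left] at hcompl
    have := C.g_mem
    rw [hcompl, Subgroup.mem_bot] at this
    exact C.g_ne_one this

include C in
/-- The contradiction for simple groups. -/
theorem false_of_simple [IsSimpleGroup G] (hG : ¬ IsMulCommutative G)
    (hpairs : ∀ x y : G, orderOf x = p → orderOf y = p →
      IsPSolvable p ↥(Subgroup.closure ({x, y} : Set G))) : False := by
  classical
  have hpp := hp.out
  obtain ⟨M, hM⟩ := Cfsg.Agent.Lib.BlockVal.exists_isPModular hpp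
  obtain ⟨D⟩ := C.exists_bd hM hpairs
  have he2 := C.two_le_card hG
  have hW := C.wdata
  rcases Nat.lt_or_ge C.a 2 with ha | ha
  · have ha1 : C.a = 1 := by have := C.ha; omega
    have hnp : n = p := by
      rw [C.hn, ha1, pow_one]
    by_cases hl : ∃ l : ZMod n, l ≠ 0 ∧ l ∉ C.W
    · obtain ⟨l, hl0, hlW⟩ := hl
      exact Cfsg.Agent.Lib.CycArith3.false_of_prime hnp hW D he2 hl0 hlW
    · push Not at hl
      have hle := card_le_of_free hW C.hn C.ha
      have hcomm' : ∀ x ∈ (C.P : Subgroup G), ∀ z ∈ (C.P : Subgroup G), x * z = z * x :=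
        fun x hx z hz => comm_of_cyclic C.cyc hx hz
      have hall : ∀ i j : ZMod n, i ≠ 0 → j ≠ 0 → IsConj (C.el i) (C.el j) := by
        intro i j hi hj
        haveI : Fact n.Prime := ⟨hnp ▸ hpp⟩
        have hk : j * i⁻¹ ≠ 0 := mul_ne_zero hj (inv_ne_zero hi)
        have h1 := C.fusion' (i := i) (hl _ hk)
        rwa [mul_assoc, inv_mul_cancel₀ hi, mul_one] at h1
      have hp2 : p = 2 := by
        have hne : ∀ x ∈ (C.P : Subgroup G), x ≠ 1 → ∃ i : ZMod n, i ≠ 0 ∧ C.el i = x := by
          intro x hx hx1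
          obtain ⟨i, hi⟩ := C.exists_el hx
          refine ⟨i, ?_, hi⟩
          rintro rfl
          exact hx1 (by rw [← hi, C.el_zero])
        refine Cfsg.Agent.S1951.result hG C.P ?_ ?_ ?_ ?_ ?_ hpairs
        · intro h
          have := C.g_mem
          rw [h, Subgroup.mem_bot] at this
          exact C.g_ne_one this
        · refine ⟨?_, ?_⟩
          · refine ⟨⟨fun a b => ?_⟩⟩
            apply Subtype.ext
            exact hcomm' a.1 a.2 b.1 b.2
          · intro x hx
            obtain ⟨i, rfl⟩ := C.exists_el hx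
            have h0 : (p : ZMod n) = 0 := (ZMod.natCast_eq_zero_iff p n).mpr (dvd_of_eq hnp)
            rw [C.el_pow, h0, zero_mul, C.el_zero]
        · intro x hx y hy hx1 hy1
          obtain ⟨i, hi0, rfl⟩ := hne x hx hx1
          obtain ⟨j, hj0, rfl⟩ := hne y hy hy1
          exact isConj_iff.mp (hall i j hi0 hj0)
        · intro x hx y hy h
          exact exists_normalizer_conj C.P C.cyc hx hy (isConj_iff.mpr h)
        · intro x hx hx1
          refine hasNormalPComplement_centralizer C.P C.cyc hx ?_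
          rintro rfl
          rw [orderOf_one] at hx1
          exact hpp.one_lt.ne' hx1.symm
      omega
  · exact false_of_large C.hn ha hW D he2

end Simple

end CSData

end Cfsg.Agent.Lib.CycSylow
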