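import Mathlib
import Cfsg.Agent.Lib.CycSylow7

/-!
# Finite groups with a cyclic Sylow subgroup: the reduction to simple groups
-/

set_option autoImplicit false
set_option linter.unusedSectionVars false
set_option linter.unusedVariables false

open Cfsg

namespace Cfsg.Agent.Lib.CycSylow

open Cfsg.Agent.Lib.PCore Cfsg.Agent.Lib.PConstr

universe u v

section Red

variable {p : ℕ} [hp : Fact p.Prime]

theorem pCore_or_pPrimeCore_ne_bot {X : Type u} [Group X] [Finite X] [Nontrivial X]
    (h : IsPSolvable p X) : pCore p X ≠ ⊥ ∨ pPrimeCore p X ≠ ⊥ := by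
  obtain ⟨n, H, h0, hlast, hmono, hnorm, hidx⟩ := h
  by_contra hcon
  push Not at hcon
  obtain ⟨h1, h2⟩ := hcon
  have hall : ∀ i : Fin (n + 1), H i = ⊥ := by
    intro i
    induction i using Fin.induction with
    | zero => exact h0
    | succ i ih =>
      have hN := hnorm i.succ
      rcases hidx i with ⟨m, hm⟩ | hc
      · rw [ih, Subgroup.relIndex_bot_left] at hm
        have : H i.succ ≤ pCore p X := le_pCore hN (IsPGroup.of_card hm)
        rwa [h1, le_bot_iff] at this
      · rw [ih, Subgroup.relIndex_bot_left] at hc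
        have : H i.succ ≤ pPrimeCore p X := le_pPrimeCore hN hc
        rwa [h2, le_bot_iff] at this
  have h3 := hall (Fin.last n)
  rw [hlast] at h3
  exact top_ne_bot h3

theorem cores_of_normal {G : Type u} [Group G] [Finite G] (M : Subgroup G) [hMn : M.Normal]
    (hM : IsPSolvable p M) (hne : M ≠ ⊥) : pCore p G ≠ ⊥ ∨ pPrimeCore p G ≠ ⊥ := by
  haveI : Nontrivial M := (Subgroup.nontrivial_iff_ne_bot M).mpr hne
  rcases pCore_or_pPrimeCore_ne_bot hM with h | h
  · left
    intro hb
    apply h
    have hn : ((pCore p M).map M.subtype).Normal :=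
      ConjAct.normal_of_characteristic_of_normal
    have h1 : (pCore p M).map M.subtype ≤ pCore p G := le_pCore hn ((isPGroup_pCore p).map _)
    rw [hb, le_bot_iff] at h1
    exact (Subgroup.map_eq_bot_iff_of_injective _ M.subtype_injective).mp h1
  · right
    intro hb
    apply h
    have hn : ((pPrimeCore p M).map M.subtype).Normal :=
      ConjAct.normal_of_characteristic_of_normal
    have h1 : (pPrimeCore p M).map M.subtype ≤ pPrimeCore p G := le_pPrimeCore hn (by
      rw [Subgroup.card_map_of_injective M.subtype_injective]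
      exact card_pPrimeCore_coprime p)
    rw [hb, le_bot_iff] at h1
    exact (Subgroup.map_eq_bot_iff_of_injective _ M.subtype_injective).mp h1

/-- The hypothesis on pairs. -/
def PairsHyp (p : ℕ) (G : Type u) [Group G] : Prop :=
  ∀ x y : G, orderOf x = p → orderOf y = p → IsPSolvable p ↥(Subgroup.closure ({x, y} : Set G))

theorem pairs_of_injective {X Y : Type u} [Group X] [Group Y] (φ : X →* Y)
    (hφ : Function.Injective φ) (h : PairsHyp p Y) : PairsHyp p X := by
  intro x y hx hy
  have hsol := h (φ x) (φ y) (by rw [orderOf_injective φ hφ, hx]) (by rw [orderOf_injective φ hφ, hy])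
  have heq : Subgroup.closure ({φ x, φ y} : Set Y) =
      (Subgroup.closure ({x, y} : Set X)).map φ := by
    rw [MonoidHom.map_closure, Set.image_pair]
  let e := (Subgroup.equivMapOfInjective (Subgroup.closure ({x, y} : Set X)) φ hφ).trans
    (MulEquiv.subgroupCongr heq.symm)
  exact Cfsg.Agent.Lib.PSolv.isPSolvable_of_surjective hsol e.symm.toMonoidHom e.symm.surjective

theorem lift_order_p {X Y : Type u} [Group X] [Group Y] [Finite X] (φ : X →* Y)
    (hφ : Function.Surjective φ) (hker : (Nat.card φ.ker).Coprime p) {y : Y} (hy : orderOf y = p) :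
    ∃ x, φ x = y ∧ orderOf x = p := by
  have hpp := hp.out
  obtain ⟨x₀, rfl⟩ := hφ y
  obtain ⟨u, w, huw, hcom, ⟨k, hk⟩, hw⟩ := Cfsg.Agent.Lib.BlkOrth.exists_isPPart hpp x₀
  have h1 : IsPPart p (φ x₀) (φ u) := by
    refine ⟨φ w, by rw [← map_mul, huw], hcom.map φ, ?_, ?_⟩
    · have h2 : orderOf (φ u) ∣ p ^ k := by
        rw [← hk]
        exact orderOf_map_dvd φ u
      obtain ⟨j, _, hj⟩ := (Nat.dvd_prime_pow hpp).mp h2
      exact ⟨j, hj⟩
    · intro h2
      exact hw (h2.trans (orderOf_map_dvd φ w))
  have h2 : IsPPart p (φ x₀) (φ x₀) :=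
    Cfsg.Agent.Lib.BlkOrth.isPPart_self ⟨1, by rw [pow_one, hy]⟩ hpp
  have h3 : φ u = φ x₀ := Cfsg.Agent.Lib.BlkOrth.pPart_unique hpp h1 h2
  refine ⟨u, h3, ?_⟩
  have h4 : u ^ p ∈ φ.ker := by
    rw [MonoidHom.mem_ker, map_pow, h3, ← hy, pow_orderOf_eq_one]
  apply orderOf_eq_prime
  · have h5 : orderOf (u ^ p) ∣ Nat.card φ.ker := Subgroup.orderOf_dvd_natCard _ h4
    have h6 : orderOf (u ^ p) ∣ p ^ k := by
      apply orderOf_dvd_of_pow_eq_one
      rw [← pow_mul, mul_comm, pow_mul, ← hk, pow_orderOf_eq_one, one_pow]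
    have h7 : orderOf (u ^ p) = 1 :=
      Nat.eq_one_of_dvd_coprimes (Nat.Coprime.pow_right k hker) h5 h6
    exact orderOf_eq_one_iff.mp h7
  · rintro rfl
    rw [map_one] at h3
    rw [← h3, orderOf_one] at hy
    exact hpp.one_lt.ne hy

theorem pairs_of_surjective {X Y : Type u} [Group X] [Group Y] [Finite X] (φ : X →* Y)
    (hφ : Function.Surjective φ) (hker : (Nat.card φ.ker).Coprime p) (h : PairsHyp p X) :
    PairsHyp p Y := by
  intro xb yb hx hy
  obtain ⟨a, rfl, ha⟩ := lift_order_p φ hφ hker hx
  obtain ⟨b, rfl, hb⟩ := lift_order_p φ hφ hker hy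
  have hsol := h a b ha hb
  have heq : (Subgroup.closure ({a, b} : Set X)).map φ = Subgroup.closure ({φ a, φ b} : Set Y) := by
    rw [MonoidHom.map_closure, Set.image_pair]
  let f := (MulEquiv.subgroupCongr heq).toMonoidHom.comp (φ.subgroupMap (Subgroup.closure ({a, b} : Set X)))
  refine Cfsg.Agent.Lib.PSolv.isPSolvable_of_surjective hsol f ?_
  exact (MulEquiv.subgroupCongr heq).surjective.comp (φ.subgroupMap_surjective _)

theorem isCyclic_of_sylow {G : Type u} [Group G] [Finite G] (P : Sylow p G)
    (hc : IsCyclic (P : Subgroup G)) {X : Subgroup G} (S : Subgroup X) (hS : IsPGroup p S) :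
    IsCyclic S := by
  have hT : IsPGroup p (S.map X.subtype) := hS.map _
  obtain ⟨g, hg⟩ := Cfsg.Agent.Lib.SylowConjLemmas.exists_conj_mem P _ hT
  let f : S →* (P : Subgroup G) :=
    ((MulAut.conj g).toMonoidHom.comp (X.subtype.comp S.subtype)).codRestrict _ (by
      intro s
      exact hg _ ⟨s, s.2, rfl⟩)
  apply isCyclic_of_injective f
  intro s s' h
  have h1 := congrArg Subtype.val h
  have h2 : g * ((s : X) : G) * g⁻¹ = g * ((s' : X) : G) * g⁻¹ := h1
  have h3 := mul_left_cancel (mul_right_cancel h2)
  exact Subtype.ext (Subtype.ext h3)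

theorem isPSolvable_chain {G : Type u} [Group G] (A B : Subgroup G) (hA : A.Normal) (hB : B.Normal)
    (hAB : A ≤ B) (h1 : (Nat.card A).Coprime p) (h2 : ∃ m, A.relIndex B = p ^ m)
    (h3 : B.index.Coprime p) : IsPSolvable p G := by
  refine ⟨3, ![⊥, A, B, ⊤], rfl, rfl, ?_, ?_, ?_⟩
  · apply Fin.monotone_iff_le_succ.mpr
    intro i
    fin_cases i
    · exact bot_le
    · exact hAB
    · exact le_top
  · intro i
    fin_cases i
    · exact Subgroup.normal_bot
    · exact hA
    · exact hB
    · exact (inferInstance : (⊤ : Subgroup G).Normal)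
  · intro i
    fin_cases i
    · right
      show (⊥ : Subgroup G).relIndex A |>.Coprime p
      rw [Subgroup.relIndex_bot_left]
      exact h1
    · left
      exact h2
    · right
      show B.relIndex ⊤ |>.Coprime p
      rw [Subgroup.relIndex_top_right]
      exact h3

/-- The case of a nontrivial normal `p`-subgroup. -/
theorem isPSolvable_of_pCore {G : Type u} [Group G] [Finite G] (P : Sylow p G)
    (hc : IsCyclic (P : Subgroup G)) (hO : pCore p G ≠ ⊥) : IsPSolvable p G := by
  have hpp := hp.out
  obtain ⟨k, hk⟩ := IsPGroup.exists_card_eq (isPGroup_pCore (G := G) p)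
  have hk0 : k ≠ 0 := by
    rintro rfl
    rw [pow_zero] at hk
    exact hO (Subgroup.eq_bot_of_card_eq _ hk)
  have hdvd : p ∣ Nat.card (pCore p G) := by
    rw [hk]
    exact dvd_pow_self p hk0
  obtain ⟨x, hx⟩ := exists_prime_orderOf_dvd_card' p hdvd
  set a : G := (x : G) with ha
  have hao : orderOf a = p := by
    rw [ha, Subgroup.orderOf_coe, hx]
  have haP : a ∈ (P : Subgroup G) := pCore_le_sylow p P x.2
  have hPcomm : ∀ s ∈ (P : Subgroup G), ∀ t ∈ (P : Subgroup G), s * t = t * s :=
    fun s hs t ht => comm_of_cyclic hc hs ht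
  -- the subgroup generated by `a` is normal
  have hconj : ∀ g : G, g * a * g⁻¹ ∈ Subgroup.zpowers a := by
    intro g
    have hm : g * a * g⁻¹ ∈ pCore p G := (pCore_normal p G).conj_mem _ x.2 g
    have hmP : g * a * g⁻¹ ∈ (P : Subgroup G) := pCore_le_sylow p P hm
    have ho : orderOf (g * a * g⁻¹) = p :=
      (SemiconjBy.orderOf_eq g (show g * a = g * a * g⁻¹ * g by group)).symm.trans hao
    let a' : (P : Subgroup G) := ⟨a, haP⟩
    let b' : (P : Subgroup G) := ⟨g * a * g⁻¹, hmP⟩
    have hcard : Nat.card (Subgroup.zpowers b') = Nat.card (Subgroup.zpowers a') := by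
      rw [Nat.card_zpowers, Nat.card_zpowers]
      have e1 : orderOf b' = p := by rw [Subgroup.orderOf_mk]; exact ho
      have e2 : orderOf a' = p := by rw [Subgroup.orderOf_mk]; exact hao
      rw [e1, e2]
    have heq := Cfsg.Agent.Lib.OddPGroup.eq_of_card_of_isCyclic hcard
    have hm2 : b' ∈ Subgroup.zpowers a' := by
      rw [← heq]
      exact Subgroup.mem_zpowers _
    obtain ⟨m, hm⟩ := Subgroup.mem_zpowers_iff.mp hm2
    refine Subgroup.mem_zpowers_iff.mpr ⟨m, ?_⟩
    have := congrArg Subtype.val hm
    simpa [a', b'] using this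
  set C := Subgroup.centralizer ({a} : Set G) with hC
  have hmemC : ∀ {s : G}, s ∈ C ↔ a * s = s * a := by
    intro s
    rw [hC, Subgroup.mem_centralizer_singleton_iff]
    exact eq_comm
  have hCn : C.Normal := by
    refine ⟨fun s hs g => ?_⟩
    rw [hmemC] at hs ⊢
    obtain ⟨m, hm⟩ := Subgroup.mem_zpowers_iff.mp (hconj g⁻¹)
    have hcomm : Commute (g⁻¹ * a * g) s := by
      have e : g⁻¹ * a * g⁻¹⁻¹ = g⁻¹ * a * g := by group
      rw [← e, ← hm]
      exact ((show Commute a s from hs).zpow_left m)
    have e2 : g⁻¹ * a * g * s = s * (g⁻¹ * a * g) := hcomm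
    calc a * (g * s * g⁻¹) = g * (g⁻¹ * a * g * s) * g⁻¹ := by group
      _ = g * (s * (g⁻¹ * a * g)) * g⁻¹ := by rw [e2]
      _ = g * s * g⁻¹ * a := by group
  have hPC : (P : Subgroup G) ≤ C := fun s hs => hmemC.mpr (hPcomm a haP s hs)
  obtain ⟨S, N, hNn, hNc⟩ := hasNormalPComplement_centralizer P hc haP (by
    rintro h
    rw [h, orderOf_one] at hao
    exact hpp.one_lt.ne hao)
  haveI := hCn
  set K := pPrimeCore p ↥C with hK
  have hNK : N ≤ K := by
    apply le_pPrimeCore hNn
    rw [← hNc.index_eq_card]
    exact ((Nat.Prime.coprime_iff_not_dvd hpp).mpr S.not_dvd_index).symm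
  obtain ⟨m, hm⟩ := IsPGroup.exists_card_eq S.isPGroup'
  have hidx : ∃ m', K.index = p ^ m' := by
    have h1 : K.index ∣ p ^ m := by
      rw [← hm, ← hNc.symm.index_eq_card]
      exact Subgroup.index_dvd_of_le hNK
    obtain ⟨j, _, hj⟩ := (Nat.dvd_prime_pow hpp).mp h1
    exact ⟨j, hj⟩
  refine isPSolvable_chain (K.map C.subtype) C ConjAct.normal_of_characteristic_of_normal hCn
    (Subgroup.map_subtype_le K) ?_ ?_ ?_
  · rw [Subgroup.card_map_of_injective C.subtype_injective]
    exact card_pPrimeCore_coprime p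
  · obtain ⟨m', hm'⟩ := hidx
    refine ⟨m', ?_⟩
    rw [← hm']
    unfold Subgroup.relIndex
    congr 1
    exact Subgroup.comap_map_eq_self_of_injective C.subtype_injective K
  · have h1 : C.index ∣ (P : Subgroup G).index := Subgroup.index_dvd_of_le hPC
    have h2 : ¬ p ∣ C.index := fun h => P.not_dvd_index (h.trans h1)
    exact ((Nat.Prime.coprime_iff_not_dvd hpp).mpr h2).symm

/-- A nontrivial cyclic Sylow subgroup gives the data. -/
theorem exists_csdata {G : Type u} [Group G] [Finite G] (P : Sylow p G)
    (hc : IsCyclic (P : Subgroup G)) (hne : (P : Subgroup G) ≠ ⊥) :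
    ∃ (n : ℕ) (_ : NeZero n), Nonempty (CSData p n G) := by
  obtain ⟨g, hg⟩ := hc.exists_generator
  obtain ⟨a, ha⟩ := IsPGroup.exists_card_eq P.isPGroup'
  have hne0 : Nat.card (P : Subgroup G) ≠ 0 := Nat.card_pos.ne'
  refine ⟨Nat.card (P : Subgroup G), ⟨hne0⟩, ⟨⟨P, hc, g, g.2, ?_, ?_, a, ha, ?_⟩⟩⟩
  · intro x hx
    have h1 : (⟨x, hx⟩ : (P : Subgroup G)) ∈ Submonoid.powers g :=
      mem_powers_iff_mem_zpowers.mpr (hg ⟨x, hx⟩)
    obtain ⟨k, hk⟩ := h1
    exact ⟨k, congrArg Subtype.val hk⟩
  · rw [Subgroup.orderOf_coe]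
    exact orderOf_eq_card_of_forall_mem_zpowers hg
  · by_contra h
    have h0 : a = 0 := by omega
    rw [h0, pow_zero] at ha
    exact hne (Subgroup.eq_bot_of_card_eq _ ha)

/-- The main theorem of this development. -/
theorem isPSolvable_main : ∀ (m : ℕ) (G : Type u) [Group G] [Finite G], Nat.card G = m →
    ∀ P : Sylow p G, IsCyclic (P : Subgroup G) → PairsHyp p G → IsPSolvable p G := by
  have hpp := hp.out
  intro m
  induction m using Nat.strong_induction_on with
  | _ m ih =>
    intro G _ _ hm P hc hpairs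
    by_cases hO' : pPrimeCore p G = ⊥
    · by_cases hO : pCore p G = ⊥
      · by_cases htriv : Nontrivial G
        · exfalso
          have hsimple : IsSimpleGroup G := by
            refine ⟨fun M hMn => ?_⟩
            by_contra hcon
            push Not at hcon
            obtain ⟨hb, ht⟩ := hcon
            have hlt : Nat.card M < m := by
              rw [← hm]
              exact lt_of_le_of_ne (Subgroup.card_le_card_group M)
                (fun h => ht (Subgroup.eq_top_of_card_eq M h))
            obtain ⟨Q⟩ : Nonempty (Sylow p M) := inferInstance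
            have hQ : IsCyclic (Q : Subgroup M) := isCyclic_of_sylow P hc _ Q.isPGroup'
            have hsol := ih _ hlt M rfl Q hQ (pairs_of_injective M.subtype M.subtype_injective hpairs)
            rcases cores_of_normal M hsol hb with h | h
            · exact h hO
            · exact h hO'
          have hPne : (P : Subgroup G) ≠ ⊥ := by
            intro hb
            have h1 : (Nat.card G).Coprime p := by
              have h2 := P.not_dvd_index
              rw [hb, Subgroup.index_bot] at h2
              exact ((Nat.Prime.coprime_iff_not_dvd hpp).mpr h2).symm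
            have h3 : (⊤ : Subgroup G) ≤ pPrimeCore p G := le_pPrimeCore inferInstance (by
              rw [Subgroup.card_top]
              exact h1)
            rw [hO', le_bot_iff] at h3
            exact top_ne_bot h3
          have hnab : ¬ IsMulCommutative G := by
            intro hcomm
            have hn : (P : Subgroup G).Normal := by
              refine ⟨fun s hs g => ?_⟩
              have : g * s * g⁻¹ = s := by
                rw [hcomm.is_comm.comm g s]
                group
              rwa [this]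
            have h1 : (P : Subgroup G) ≤ pCore p G := le_pCore hn P.isPGroup'
            rw [hO, le_bot_iff] at h1
            exact hPne h1
          obtain ⟨n, _, ⟨C⟩⟩ := exists_csdata P hc hPne
          letI : Fintype G := Fintype.ofFinite G
          exact C.false_of_simple hnab hpairs
        · rw [not_nontrivial_iff_subsingleton] at htriv
          refine ⟨0, fun _ => ⊥, rfl, ?_, monotone_const, fun _ => Subgroup.normal_bot, fun i => i.elim0⟩
          exact Subsingleton.elim _ _
      · exact isPSolvable_of_pCore P hc hO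
    · -- pass to the quotient by the largest normal `p'`-subgroup
      set N := pPrimeCore p G with hN
      have hcop : (Nat.card N).Coprime p := card_pPrimeCore_coprime p
      apply Cfsg.Agent.Lib.BlockNormal.isPSolvable_of_quotient p N (Or.inr hcop)
      have hlt : Nat.card (G ⧸ N) < m := by
        have h1 := Subgroup.card_eq_card_quotient_mul_card_subgroup N
        have h2 : 1 < Nat.card N := by
          haveI : Nontrivial N := (Subgroup.nontrivial_iff_ne_bot N).mpr hO'
          exact Finite.one_lt_card
        have h3 : 0 < Nat.card (G ⧸ N) := Nat.card_pos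
        rw [← hm, h1]
        nlinarith
      have hsurj := QuotientGroup.mk'_surjective N
      have hQc : IsCyclic ((P.mapSurjective hsurj : Sylow p (G ⧸ N)) : Subgroup (G ⧸ N)) := by
        rw [Sylow.coe_mapSurjective]
        exact isCyclic_of_surjective _ ((QuotientGroup.mk' N).subgroupMap_surjective (P : Subgroup G))
      refine ih _ hlt (G ⧸ N) rfl (P.mapSurjective hsurj) hQc ?_
      refine pairs_of_surjective (QuotientGroup.mk' N) hsurj ?_ hpairs
      rw [QuotientGroup.ker_mk']
      exact hcop

end Red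

end Cfsg.Agent.Lib.CycSylow
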