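import Cfsg.Agent.Lib.D4Inv50F

/-!
# The involutions of `³D₄(q)`, `q` even: field lemmas, torus elements
-/

set_option autoImplicit false
set_option linter.unusedSectionVars false
set_option linter.unusedVariables false
set_option linter.unusedSimpArgs false

namespace Cfsg.Agent.Lib.D4Inv50

open Cfsg Cfsg.Lie Cfsg.Agent.Lib.Chev Cfsg.Agent.Lib.Chev.TwD4

section Field

variable {K : Type*} [Field K] [CharP K 2] [Fintype K] {f : K ≃+* K}

theorem exists_sqrt (t : K) : ∃ u, u * u = t := by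
  have h : Function.Surjective (frobenius K 2) := Finite.surjective_of_injective (frobenius K 2).injective
  obtain ⟨u, hu⟩ := h t
  exact ⟨u, by rw [← hu, frobenius_def, sq]⟩

theorem sq_inj {u v : K} (h : u * u = v * v) : u = v := by
  have h2 : (2 : K) = 0 := CharTwo.two_eq_zero
  have h3 : (u + v) * (u + v) = 0 := by linear_combination h + (u * v + v * v) * h2
  have h4 : u + v = 0 := by
    rcases mul_eq_zero.1 h3 with h5 | h5 <;> exact h5
  have h5 : u = -v := by linear_combination h4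
  rw [h5, CharTwo.neg_eq]

theorem fix_sqrt {u : K} (h : f (u * u) = u * u) : f u = u := by
  apply sq_inj
  rw [← map_mul, h]

theorem exists_theta {q : ℕ} (hq : 2 ≤ q) (hK : Fintype.card K = q ^ 3) (hf : ∀ t, f t = t ^ q)
    (hf3 : ∀ t, f (f (f t)) = t) : ∃ θ, θ + f θ + f (f θ) = 1 := by
  classical
  by_contra hcon
  push Not at hcon
  have h0 : ∀ t : K, t + f t + f (f t) = 0 := by
    intro t
    by_contra hne
    set τ := t + f t + f (f t) with hτdef
    have hτ : f τ = τ := by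
      rw [hτdef, map_add, map_add, hf3]
      ring
    apply hcon (t / τ)
    simp only [map_div₀, hτ]
    field_simp
    exact hτdef.symm
  let P : Polynomial K := Polynomial.X ^ (q ^ 2) + Polynomial.X ^ q + Polynomial.X
  have hq2 : q < q ^ 2 := by nlinarith
  have hroot : ∀ t, P.IsRoot t := by
    intro t
    have h1 := h0 t
    have e : f (f t) = t ^ (q ^ 2) := by rw [hf, hf, ← pow_mul, sq]
    rw [e, hf] at h1
    simp only [P, Polynomial.IsRoot.def, Polynomial.eval_add, Polynomial.eval_pow, Polynomial.eval_X]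
    linear_combination h1
  have hne : P ≠ 0 := by
    intro h
    have h1 := congrArg (fun p => Polynomial.coeff p (q ^ 2)) h
    simp only [P, Polynomial.coeff_add, Polynomial.coeff_X_pow, Polynomial.coeff_X, Polynomial.coeff_zero] at h1
    rw [if_pos trivial, if_neg (by omega), if_neg (by omega)] at h1
    simp at h1
  have hdeg : P.natDegree ≤ q ^ 2 := by
    apply (Polynomial.natDegree_add_le _ _).trans
    apply max_le
    · apply (Polynomial.natDegree_add_le _ _).trans
      apply max_le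
      · rw [Polynomial.natDegree_X_pow]
      · rw [Polynomial.natDegree_X_pow]
        exact hq2.le
    · rw [Polynomial.natDegree_X]
      omega
  have hsub : (Finset.univ : Finset K) ⊆ P.roots.toFinset := by
    intro t _
    rw [Multiset.mem_toFinset, Polynomial.mem_roots hne]
    exact hroot t
  have h1 := Finset.card_le_card hsub
  have h2 : P.roots.toFinset.card ≤ q ^ 2 :=
    (Multiset.toFinset_card_le _).trans ((Polynomial.card_roots' P).trans hdeg)
  rw [Finset.card_univ, hK] at h1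
  have h3 : q ^ 2 < q ^ 3 := Nat.pow_lt_pow_right (by omega) (by norm_num)
  omega

theorem tr_solve (hf3 : ∀ t, f (f (f t)) = t) {θ : K} (hθ : θ + f θ + f (f θ) = 1) {u g : K} (hu : u ≠ 0) (hg : f g = g) :
    ∃ w, u * w + f u * f w + f (f u) * f (f w) = g := by
  refine ⟨g * θ / u, ?_⟩
  have e : u * (g * θ / u) = g * θ := by field_simp
  rw [← map_mul, ← map_mul, ← map_mul, e, map_mul, map_mul, hg, hg]
  linear_combination g * hθ

theorem hilbert (hf3 : ∀ t, f (f (f t)) = t) {θ : K} (hθ : θ + f θ + f (f θ) = 1) {D : K} (hD : D + f D + f (f D) = 0) :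
    ∃ y, f y + f (f y) = D := by
  have h2 : (2 : K) = 0 := CharTwo.two_eq_zero
  refine ⟨f (f D) * θ + (f (f D) + D) * f θ, ?_⟩
  simp only [map_add, map_mul, hf3]
  linear_combination D * hθ + θ * hD + (f D * f (f θ) - D * θ) * h2

end Field

section Torus

variable {K : Type*} [Field K] [CharP K 2] [Fintype K] (f : K ≃+* K)

theorem chi_expand (c : Fin chevD4.rank → Kˣ) (s : ℕ) :
    chiT chevD4 c s = c ⟨0, by decide⟩ ^ chevD4.cartan 0 s * c ⟨1, by decide⟩ ^ chevD4.cartan 1 s *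
      c ⟨2, by decide⟩ ^ chevD4.cartan 2 s * c ⟨3, by decide⟩ ^ chevD4.cartan 3 s :=
  Fin.prod_univ_four (fun i : Fin 4 => c i ^ chevD4.cartan i s)

theorem tor_conj (c : Fin chevD4.rank → Kˣ) {s : ℕ} (hs : s < chevD4.nroots) (t : K) :
    tor RootD4T.R chevD4 c * x s t * (tor RootD4T.R chevD4 c)⁻¹ = x s (((chiT chevD4 c s : Kˣ) : K) * t) :=
  hF.tor_conj_xG c hs t

/-- The torus element acting on the long fundamental root group. -/
theorem tor_b {u : Kˣ} (hu : f u = u) (a : K) : Cj f (E f a 0 0 0 0 0) (E f (u * u * a) 0 0 0 0 0) := by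
  let c : Fin chevD4.rank → Kˣ := fun j => if j.1 = 1 then u else 1
  have hc : (sc f).FTh c = c := by
    rw [fixed_iff]
    refine ⟨?_, ?_, ?_, ?_⟩
    · show (1 : Kˣ) = unitsF f 1
      rw [map_one]
    · show u = unitsF f u
      exact Units.ext hu.symm
    · show (1 : Kˣ) = unitsF f 1
      rw [map_one]
    · show (1 : Kˣ) = unitsF f 1
      rw [map_one]
  refine ⟨tor RootD4T.R chevD4 c, hmem f c hc, ?_⟩
  have hchi : ((chiT chevD4 c 14 : Kˣ) : K) = u * u := by
    rw [chi_expand]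
    have t : chevD4.cartan 0 14 = -1 ∧ chevD4.cartan 1 14 = 2 ∧ chevD4.cartan 2 14 = -1 ∧ chevD4.cartan 3 14 = -1 := by
      decide +kernel
    rw [t.1, t.2.1, t.2.2.1, t.2.2.2]
    show (((1 : Kˣ) ^ (-1 : ℤ) * u ^ (2 : ℤ) * (1 : Kˣ) ^ (-1 : ℤ) * (1 : Kˣ) ^ (-1 : ℤ) : Kˣ) : K) = _
    simp [zpow_two, sq]
  unfold E
  simp only [map_zero, zero_mul, mul_zero, add_zero, zero_add]
  rw [conj_W]
  simp only [conj_x0, one_mul, tor_conj c (s := 14) (by decide), hchi]
  unfold W
  simp only [x_zero, one_mul]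

/-- The torus element acting on the short fundamental root group. -/
theorem tor_a (hf3 : ∀ t, f (f (f t)) = t) (u : Kˣ) (b : K) : Cj f (E f 0 b 0 0 0 0) (E f 0 (u * u * b) 0 0 0 0) := by
  let c : Fin chevD4.rank → Kˣ := fun j => if j.1 = 0 then u else if j.1 = 1 then 1 else if j.1 = 2 then unitsF f u else unitsF f (unitsF f u)
  have hc : (sc f).FTh c = c := by
    rw [fixed_iff]
    refine ⟨?_, ?_, ?_, ?_⟩
    · rfl
    · show (1 : Kˣ) = unitsF f 1
      rw [map_one]
    · rfl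
    · show u = unitsF f (unitsF f (unitsF f u))
      exact Units.ext (hf3 u).symm
  refine ⟨tor RootD4T.R chevD4 c, hmem f c hc, ?_⟩
  have hchi18 : ((chiT chevD4 c 18 : Kˣ) : K) = u * u := by
    rw [chi_expand]
    have t : chevD4.cartan 0 18 = 2 ∧ chevD4.cartan 1 18 = -1 ∧ chevD4.cartan 2 18 = 0 ∧ chevD4.cartan 3 18 = 0 := by
      decide +kernel
    rw [t.1, t.2.1, t.2.2.1, t.2.2.2]
    show ((u ^ (2 : ℤ) * (1 : Kˣ) ^ (-1 : ℤ) * (unitsF f u) ^ (0 : ℤ) * (unitsF f (unitsF f u)) ^ (0 : ℤ) : Kˣ) : K) = _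
    simp [zpow_two, sq]
  have hchi13 : ((chiT chevD4 c 13 : Kˣ) : K) = f u * f u := by
    rw [chi_expand]
    have t : chevD4.cartan 0 13 = 0 ∧ chevD4.cartan 1 13 = -1 ∧ chevD4.cartan 2 13 = 2 ∧ chevD4.cartan 3 13 = 0 := by
      decide +kernel
    rw [t.1, t.2.1, t.2.2.1, t.2.2.2]
    show ((u ^ (0 : ℤ) * (1 : Kˣ) ^ (-1 : ℤ) * (unitsF f u) ^ (2 : ℤ) * (unitsF f (unitsF f u)) ^ (0 : ℤ) : Kˣ) : K) = _
    simp [zpow_two, sq, unitsF_val]
  have hchi12 : ((chiT chevD4 c 12 : Kˣ) : K) = f (f u) * f (f u) := by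
    rw [chi_expand]
    have t : chevD4.cartan 0 12 = 0 ∧ chevD4.cartan 1 12 = -1 ∧ chevD4.cartan 2 12 = 0 ∧ chevD4.cartan 3 12 = 2 := by
      decide +kernel
    rw [t.1, t.2.1, t.2.2.1, t.2.2.2]
    show ((u ^ (0 : ℤ) * (1 : Kˣ) ^ (-1 : ℤ) * (unitsF f u) ^ (0 : ℤ) * (unitsF f (unitsF f u)) ^ (2 : ℤ) : Kˣ) : K) = _
    simp [zpow_two, sq, unitsF_val]
  unfold E
  simp only [map_zero, zero_mul, mul_zero, add_zero, zero_add]
  rw [conj_W]
  simp only [conj_x0, one_mul, tor_conj c (s := 12) (by decide), tor_conj c (s := 13) (by decide),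
    tor_conj c (s := 18) (by decide), hchi12, hchi13, hchi18, map_mul]
  unfold W
  simp only [x_zero, one_mul]

end Torus

end Cfsg.Agent.Lib.D4Inv50
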