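import Cfsg.Agent.Lib.D4Inv50G

/-!
# The involutions of `³D₄(q)`, `q` even: every involution of the Sylow subgroup is conjugate to one of two
-/

set_option autoImplicit false
set_option linter.unusedSectionVars false
set_option linter.unusedVariables false
set_option linter.unusedSimpArgs false

namespace Cfsg.Agent.Lib.D4Inv50

open Cfsg Cfsg.Lie Cfsg.Agent.Lib.Chev Cfsg.Agent.Lib.Chev.TwD4

section Class

variable {K : Type*} [Field K] [CharP K 2] [Fintype K] {f : K ≃+* K}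

theorem sq_coords (hf3 : ∀ t, f (f (f t)) = t) {a b c d e g : K} (ha : f a = a) (h : E f a b c d e g * E f a b c d e g = 1) :
    a * b = 0 ∧ f b * f (f c) + f (f b) * f c + a * f b * f (f b) = 0 ∧
    b * d + f b * f d + f (f b) * f (f d) + b * f b * f (f c) + b * f (f b) * f c + f b * f (f b) * c + a * b * f b * f (f b) = 0 ∧
    a * e + c * d + f c * f d + f (f c) * f (f d) + b * f c * f (f c) + f b * c * f (f c) + f (f b) * c * f c +
      a * a * b * f b * f (f b) = 0 := by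
  rw [E_sq f hf3 ha, ← E_zero f] at h
  obtain ⟨-, -, h3, h4, h5, h6⟩ := E_inj f h
  exact ⟨h3, h4, h5, h6⟩

theorem add_self' (t : K) : t + t = 0 := CharTwo.add_self_eq_zero t

theorem to_t2 (hf3 : ∀ t, f (f (f t)) = t) {θ : K} (hθ : θ + f θ + f (f θ) = 1) {c e : K} (hc : c ≠ 0) (he : f e = e) :
    Cj f (E f 0 0 c 0 e 0) (E f 0 1 0 0 0 0) := by
  have hfc : f c ≠ 0 := fun h => hc (by simpa using h)
  have hffc : f (f c) ≠ 0 := fun h => hfc (by simpa using h)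
  set N := c * f c * f (f c) with hN
  have hN0 : N ≠ 0 := mul_ne_zero (mul_ne_zero hc hfc) hffc
  have hfN : f N = N := by
    rw [hN, map_mul, map_mul, hf3]
    ring
  obtain ⟨v, hv⟩ := exists_sqrt (e / N)
  have hfv : f v = v := fix_sqrt (by rw [hv, map_div₀, he, hfN])
  have s5 := st_S5 f hf3 hfv (c := c) (e := e)
  have e0 : e + c * f c * f (f c) * v * v = 0 := by
    have e1 : c * f c * f (f c) * v * v = N * (v * v) := by rw [hN]; ring
    rw [e1, hv, mul_div_cancel₀ _ hN0, add_self']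
  rw [e0] at s5
  set g' := c * f c * f (f c) * v with hg'
  have hfg' : f g' = g' := by
    have e1 : g' = N * v := by rw [hg', hN]
    rw [e1, map_mul, hfN, hfv]
  have c1 : Cj f (E f 0 0 c 0 e 0) (E f 0 0 c 0 0 g') :=
    Cj_of_mul (E_mem_G1 f hf3 (map_zero f) (map_zero f) (map_zero f) _ _ _) s5
  obtain ⟨w, hw⟩ := tr_solve hf3 hθ hc hfg'
  have s6 := st_S6 f hf3 (w := w) (c := c) (g := g')
  have e2 : g' + c * w + f c * f w + f (f c) * f (f w) = 0 := by
    have e3 : g' + c * w + f c * f w + f (f c) * f (f w) = g' + (c * w + f c * f w + f (f c) * f (f w)) := by ring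
    rw [e3, hw, add_self']
  rw [e2] at s6
  have c2 : Cj f (E f 0 0 c 0 0 g') (E f 0 0 c 0 0 0) :=
    Cj_of_mul (E_mem_G1 f hf3 (map_zero f) (map_zero f) (map_zero f) _ _ _) s6
  have c3 : Cj f (E f 0 0 c 0 0 0) (E f 0 c 0 0 0 0) := ⟨nb, nb_mem f, nb_conj_E f c 0 0 0⟩
  obtain ⟨u₀, hu₀⟩ := exists_sqrt c⁻¹
  have hu0 : u₀ ≠ 0 := by
    rintro rfl
    rw [mul_zero] at hu₀
    exact inv_ne_zero hc hu₀.symm
  have c4 := tor_a f hf3 (Units.mk0 u₀ hu0) c
  rw [Units.val_mk0, hu₀, inv_mul_cancel₀ hc] at c4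
  exact (c1.trans c2).trans (c3.trans c4)

theorem stepS1 (hf3 : ∀ t, f (f (f t)) = t) {b c d e g : K} (hb : b ≠ 0)
    (hs : E f 0 b c d e g * E f 0 b c d e g = 1) :
    ∃ d' e' g', Cj f (E f 0 b c d e g) (E f 0 b 0 d' e' g') := by
  obtain ⟨-, h4, -, -⟩ := sq_coords hf3 (map_zero f) hs
  have hfb : f b ≠ 0 := fun h => hb (by simpa using h)
  have h5 := congrArg (fun t => f (f t)) h4
  simp only [map_add, map_mul, hf3, map_zero, zero_mul, add_zero] at h5
  have h6 : b * f c = f b * c := by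
    have h7 : f b * c = - (f b * c) := (CharTwo.neg_eq _).symm
    rw [h7]
    linear_combination h5
  have hfv : f (c / b) = c / b := by
    rw [map_div₀]
    field_simp
    linear_combination h6
  have s1 := st_S1 f hf3 hfv (b := b) (c := c) (d := d) (e := e) (g := g)
  have e0 : c + b * (c / b) = 0 := by
    rw [mul_div_cancel₀ _ hb, add_self']
  rw [e0] at s1
  exact ⟨_, _, _, Cj_of_mul (E_mem_G1 f hf3 hfv (map_zero f) (map_zero f) _ _ _) s1⟩

theorem stepS2 (hf3 : ∀ t, f (f (f t)) = t) {θ : K} (hθ : θ + f θ + f (f θ) = 1) {b d e g : K} (hb : b ≠ 0)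
    (hs : E f 0 b 0 d e g * E f 0 b 0 d e g = 1) :
    ∃ e' g', Cj f (E f 0 b 0 d e g) (E f 0 b 0 0 e' g') := by
  obtain ⟨-, -, h5, -⟩ := sq_coords hf3 (map_zero f) hs
  simp only [map_zero, zero_mul, mul_zero, add_zero] at h5
  have hfb : f b ≠ 0 := fun h => hb (by simpa using h)
  have hffb : f (f b) ≠ 0 := fun h => hfb (by simpa using h)
  set D := d / (f b * f (f b)) with hD
  have hTr : D + f D + f (f D) = 0 := by
    have e1 : D + f D + f (f D) = (b * d + f b * f d + f (f b) * f (f d)) / (b * f b * f (f b)) := by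
      rw [hD]
      simp only [map_div₀, map_mul, hf3]
      field_simp
    rw [e1, h5, zero_div]
  obtain ⟨y, hy⟩ := hilbert hf3 hθ hTr
  have s2 := st_S2 f hf3 (w := b * y) (b := b) (d := d) (e := e) (g := g)
  have e0 : d + f b * f (f (b * y)) + f (f b) * f (b * y) = 0 := by
    have e1 : f b * f (f (b * y)) + f (f b) * f (b * y) = (f b * f (f b)) * (f y + f (f y)) := by
      simp only [map_mul]
      ring
    rw [add_assoc, e1, hy, hD, mul_div_cancel₀ _ (mul_ne_zero hfb hffb), add_self']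
  rw [e0] at s2
  exact ⟨_, _, Cj_of_mul (E_mem_G1 f hf3 (map_zero f) (map_zero f) (map_zero f) _ _ _) s2⟩

theorem stepS3 (hf3 : ∀ t, f (f (f t)) = t) {θ : K} (hθ : θ + f θ + f (f θ) = 1) {b e g : K} (hb : b ≠ 0) (he : f e = e) :
    Cj f (E f 0 b 0 0 e g) (E f 0 b 0 0 0 g) := by
  obtain ⟨w, hw⟩ := tr_solve hf3 hθ hb he
  have s3 := st_S3 f hf3 (w := w) (b := b) (e := e) (g := g)
  have e0 : e + b * w + f b * f w + f (f b) * f (f w) = 0 := by
    have e3 : e + b * w + f b * f w + f (f b) * f (f w) = e + (b * w + f b * f w + f (f b) * f (f w)) := by ring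
    rw [e3, hw, add_self']
  rw [e0] at s3
  exact Cj_of_mul (E_mem_G1 f hf3 (map_zero f) (map_zero f) (map_zero f) _ _ _) s3

theorem caseB (hf3 : ∀ t, f (f (f t)) = t) {θ : K} (hθ : θ + f θ + f (f θ) = 1) {b c d e g : K} (hb : b ≠ 0)
    (hm : E f 0 b c d e g ∈ (sc f).G1) (hs : E f 0 b c d e g * E f 0 b c d e g = 1) :
    Cj f (E f 0 b c d e g) (E f 0 1 0 0 0 0) := by
  obtain ⟨d₁, e₁, g₁, c1⟩ := stepS1 hf3 hb hs
  have hm1 := c1.mem hm
  have hs1 := c1.sq hs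
  obtain ⟨e₂, g₂, c2⟩ := stepS2 hf3 hθ hb hs1
  have hm2 := c2.mem hm1
  obtain ⟨he₂, -⟩ := fixed_of_mem f hf3 (map_zero f) hm2
  have c3 := stepS3 hf3 hθ (g := g₂) hb he₂
  have hm3 := c3.mem hm2
  obtain ⟨-, hg₂⟩ := fixed_of_mem f hf3 (map_zero f) hm3
  have c4 : Cj f (E f 0 0 b 0 g₂ 0) (E f 0 b 0 0 0 g₂) := ⟨nb, nb_mem f, nb_conj_E f b 0 g₂ 0⟩
  exact (c1.trans c2).trans (c3.trans (c4.symm.trans (to_t2 hf3 hθ hb hg₂)))

theorem caseA (hf3 : ∀ t, f (f (f t)) = t) {θ : K} (hθ : θ + f θ + f (f θ) = 1) {a c d e g : K} (ha0 : a ≠ 0) (ha : f a = a)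
    (hm : E f a 0 c d e g ∈ (sc f).G1) (hs : E f a 0 c d e g * E f a 0 c d e g = 1) :
    Cj f (E f a 0 c d e g) (E f 1 0 0 0 0 0) ∨ Cj f (E f a 0 c d e g) (E f 0 1 0 0 0 0) := by
  have s1 := st_T1 f hf3 ha (s := c / a) (c := c) (d := d) (e := e) (g := g)
  have e0 : c + a * (c / a) = 0 := by
    rw [mul_div_cancel₀ _ ha0, add_self']
  rw [e0] at s1
  obtain ⟨d₁, e₁, g₁, c1⟩ : ∃ d₁ e₁ g₁, Cj f (E f a 0 c d e g) (E f a 0 0 d₁ e₁ g₁) :=
    ⟨_, _, _, Cj_of_mul (E_mem_G1 f hf3 (map_zero f) (map_zero f) (map_zero f) (c / a) 0 0) s1⟩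
  have hm1 := c1.mem hm
  have hs1 := c1.sq hs
  obtain ⟨-, -, -, h6⟩ := sq_coords hf3 ha hs1
  simp only [map_zero, zero_mul, mul_zero, add_zero, zero_add] at h6
  have he₁ : e₁ = 0 := by
    rcases mul_eq_zero.1 h6 with h7 | h7
    · exact absurd h7 ha0
    · exact h7
  subst he₁
  obtain ⟨-, hg₁⟩ := fixed_of_mem f hf3 ha hm1
  by_cases hd : d₁ = 0
  · subst hd
    left
    have hfv : f (g₁ / a) = g₁ / a := by rw [map_div₀, hg₁, ha]
    have s3 := st_T3 f hf3 ha (v := g₁ / a) (g := g₁)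
    have e1 : g₁ + a * (g₁ / a) = 0 := by
      rw [mul_div_cancel₀ _ ha0, add_self']
    rw [e1] at s3
    have c2 := Cj_of_mul (E_mem_G1 f hf3 (map_zero f) hfv (map_zero f) 0 0 0) s3
    obtain ⟨u₀, hu₀⟩ := exists_sqrt a⁻¹
    have hu0 : u₀ ≠ 0 := by
      rintro rfl
      rw [mul_zero] at hu₀
      exact inv_ne_zero ha0 hu₀.symm
    have hfu : f u₀ = u₀ := fix_sqrt (by rw [hu₀, map_inv₀, ha])
    have c3 := tor_b f (u := Units.mk0 u₀ hu0) hfu a
    rw [Units.val_mk0, hu₀, inv_mul_cancel₀ ha0] at c3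
    exact (c1.trans c2).trans c3
  · right
    obtain ⟨w, hw⟩ := tr_solve hf3 hθ hd hg₁
    have s4 := st_T4 f hf3 ha (w := w) (d := d₁) (g := g₁)
    have e1 : g₁ + d₁ * w + f d₁ * f w + f (f d₁) * f (f w) = 0 := by
      have e3 : g₁ + d₁ * w + f d₁ * f w + f (f d₁) * f (f w) = g₁ + (d₁ * w + f d₁ * f w + f (f d₁) * f (f w)) := by ring
      rw [e3, hw, add_self']
    rw [e1] at s4
    have c2 := Cj_of_mul (E_mem_G1 f hf3 (map_zero f) (map_zero f) (map_zero f) 0 w 0) s4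
    have c3 : Cj f (E f a 0 0 d₁ 0 0) (E f 0 0 d₁ 0 a 0) := ⟨na, na_mem f hf3, na_conj_E1 f a d₁⟩
    exact (c1.trans c2).trans (c3.trans (to_t2 hf3 hθ hd ha))

theorem caseC1 (hf3 : ∀ t, f (f (f t)) = t) {θ : K} (hθ : θ + f θ + f (f θ) = 1) {c d e g : K} (hc : c ≠ 0)
    (hm : E f 0 0 c d e g ∈ (sc f).G1) (hs : E f 0 0 c d e g * E f 0 0 c d e g = 1) :
    Cj f (E f 0 0 c d e g) (E f 0 1 0 0 0 0) := by
  have c1 : Cj f (E f 0 0 c d e g) (E f 0 c 0 d g e) := ⟨nb, nb_mem f, nb_conj_E f c d e g⟩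
  exact c1.trans (caseB hf3 hθ hc (c1.mem hm) (c1.sq hs))

theorem caseC (hf3 : ∀ t, f (f (f t)) = t) {θ : K} (hθ : θ + f θ + f (f θ) = 1) {c d e g : K}
    (hm : E f 0 0 c d e g ∈ (sc f).G1) (hs : E f 0 0 c d e g * E f 0 0 c d e g = 1) (hne : E f 0 0 c d e g ≠ 1) :
    Cj f (E f 0 0 c d e g) (E f 1 0 0 0 0 0) ∨ Cj f (E f 0 0 c d e g) (E f 0 1 0 0 0 0) := by
  by_cases hc : c = 0
  · subst hc
    obtain ⟨he, hg⟩ := fixed_of_mem f hf3 (map_zero f) hm
    have c1 : Cj f (E f 0 0 0 d e g) (E f e 0 d 0 0 g) := ⟨na, na_mem f hf3, na_conj_E2 f d e g⟩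
    by_cases he0 : e = 0
    · subst he0
      by_cases hd : d = 0
      · subst hd
        -- a central root element
        have hg0 : g ≠ 0 := by
          rintro rfl
          exact hne (E_zero f)
        have c2 : Cj f (E f 0 0 0 0 0 g) (E f 0 0 0 0 g 0) := ⟨nb, nb_mem f, nb_conj_E f 0 0 0 g⟩
        have c3 : Cj f (E f 0 0 0 0 g 0) (E f g 0 0 0 0 0) := ⟨na, na_mem f hf3, na_conj_E2 f 0 g 0⟩
        have c4 := c2.trans c3
        rcases caseA hf3 hθ hg0 hg (c4.mem hm) (c4.sq hs) with h | h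
        · exact Or.inl (c4.trans h)
        · exact Or.inr (c4.trans h)
      · right
        exact c1.trans (caseC1 hf3 hθ hd (c1.mem hm) (c1.sq hs))
    · rcases caseA hf3 hθ he0 he (c1.mem hm) (c1.sq hs) with h | h
      · exact Or.inl (c1.trans h)
      · exact Or.inr (c1.trans h)
  · exact Or.inr (caseC1 hf3 hθ hc hm hs)

/-- Every involution of the Sylow subgroup is conjugate to one of the two representatives. -/
theorem reduce (hf3 : ∀ t, f (f (f t)) = t) {θ : K} (hθ : θ + f θ + f (f θ) = 1) {a b c d e g : K} (ha : f a = a)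
    (hm : E f a b c d e g ∈ (sc f).G1) (hs : E f a b c d e g * E f a b c d e g = 1) (hne : E f a b c d e g ≠ 1) :
    Cj f (E f a b c d e g) (E f 1 0 0 0 0 0) ∨ Cj f (E f a b c d e g) (E f 0 1 0 0 0 0) := by
  obtain ⟨h1, -, -, -⟩ := sq_coords hf3 ha hs
  by_cases hb : b = 0
  · subst hb
    by_cases ha0 : a = 0
    · subst ha0
      exact caseC hf3 hθ hm hs hne
    · exact caseA hf3 hθ ha0 ha hm hs
  · have ha0 : a = 0 := by
      rcases mul_eq_zero.1 h1 with h2 | h2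
      · exact h2
      · exact absurd h2 hb
    subst ha0
    exact Or.inr (caseB hf3 hθ hb hm hs)

end Class

end Cfsg.Agent.Lib.D4Inv50
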