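import Mathlib

set_option autoImplicit false

namespace Cfsg.Agent.Lib.DPrimA

open MulAction
open scoped Pointwise

variable {G Ω : Type*} [Group G] [MulAction G Ω]

/-- A `G`-invariant family (indexed by the centre `x`) of equivalence relations on `Ω ∖ {x}`
with all classes of size `p`. -/
structure Sys (G : Type*) {Ω : Type*} [Group G] [MulAction G Ω] (p : ℕ) (T : Ω → Ω → Ω → Prop) :
    Prop where
  ne : ∀ {x y z}, T x y z → y ≠ x ∧ z ≠ x
  refl : ∀ {x y}, y ≠ x → T x y y
  symm : ∀ {x y z}, T x y z → T x z y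
  trans : ∀ {x y z w}, T x y z → T x z w → T x y w
  inv : ∀ (g : G) {x y z}, T x y z → T (g • x) (g • y) (g • z)
  card : ∀ {x y}, y ≠ x → Set.ncard {z | T x y z} = p

/-- Lemma A: no such family can be symmetric when `|Ω| = p² + 1`. -/
theorem Sys.false_of_symm [Fintype Ω] {p : ℕ} {T : Ω → Ω → Ω → Prop} (S : Sys G p T) (hp : 2 ≤ p)
    (hΩ : Fintype.card Ω = p ^ 2 + 1)
    (h2 : ∀ {u v u' v' : Ω}, u ≠ v → u' ≠ v' → ∃ g : G, g • u = u' ∧ g • v = v')
    {a b : Ω} (hab : a ≠ b) (hs : ∀ c, c ≠ a → c ≠ b → (T a b c ↔ T b a c)) : False := by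
  classical
  have hall : ∀ {x y : Ω}, x ≠ y → ∀ c, c ≠ x → c ≠ y → (T x y c ↔ T y x c) := by
    intro x y hxy c hcx hcy
    obtain ⟨g, rfl, rfl⟩ := h2 hab hxy
    have h1 : g⁻¹ • c ≠ a := by
      intro h; apply hcx; rw [← h, smul_inv_smul]
    have h1' : g⁻¹ • c ≠ b := by
      intro h; apply hcy; rw [← h, smul_inv_smul]
    have key := hs (g⁻¹ • c) h1 h1'
    constructor
    · intro h
      have h3 := S.inv g⁻¹ h
      simp only [inv_smul_smul] at h3
      have h4 := S.inv g (key.1 h3)
      simpa only [smul_inv_smul] using h4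
    · intro h
      have h3 := S.inv g⁻¹ h
      simp only [inv_smul_smul] at h3
      have h4 := S.inv g (key.2 h3)
      simpa only [smul_inv_smul] using h4
  let F : Finset Ω := insert a (Finset.univ.filter (T a b))
  have hmem : ∀ z, z ∈ F ↔ z = a ∨ T a b z := by
    intro z; simp [F]
  have hcardc : ∀ {x y : Ω}, y ≠ x → (Finset.univ.filter (T x y)).card = p := by
    intro x y hy
    have h := S.card hy
    rw [← Set.ncard_coe_finset]
    rw [← h]
    congr 1
    ext z; simp
  have hF : F.card = p + 1 := by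
    have h1 : a ∉ Finset.univ.filter (T a b) := by
      simp only [Finset.mem_filter, Finset.mem_univ, true_and]
      intro h
      exact (S.ne h).2 rfl
    simp only [F]
    rw [Finset.card_insert_of_notMem h1, hcardc hab.symm]
  have hcl : ∀ y y', y ∈ F → y' ∈ F → y ≠ y' → ∀ z, T y y' z → z ∈ F := by
    intro y y' hy hy' hne z hz
    rw [hmem] at hy hy' ⊢
    -- the core statement when `y ≠ a`, from `T y a z`
    have core : ∀ y, T a b y → ∀ z, T y a z → z = a ∨ T a b z := by
      intro y hy z hz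
      by_cases hza : z = a
      · exact Or.inl hza
      · right
        have hya : y ≠ a := (S.ne hy).2
        have hzy : z ≠ y := (S.ne hz).2
        exact S.trans hy ((hall hya.symm z hza hzy).2 hz)
    rcases hy with rfl | hy
    · rcases hy' with hy' | hy'
      · exact absurd hy'.symm hne
      · exact Or.inr (S.trans hy' hz)
    · rcases hy' with rfl | hy'
      · exact core y hy z hz
      · have h1 : T y a y' := by
          have h3 : T a y y' := S.trans (S.symm hy) hy'
          exact (hall (S.ne hy).2.symm y' (S.ne hy').2 hne.symm).1 h3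
        exact core y hy z (S.trans h1 hz)
  -- a point outside `F`
  have hex : ∃ w, w ∉ F := by
    by_contra hcon
    push Not at hcon
    have h1 : F = Finset.univ := Finset.eq_univ_iff_forall.mpr hcon
    have h2 : F.card = p ^ 2 + 1 := by rw [h1, Finset.card_univ, hΩ]
    rw [hF] at h2
    nlinarith
  obtain ⟨w, hw⟩ := hex
  have hpair : ∃ y ∈ F, ∃ y' ∈ F, y ≠ y' ∧ T w y y' := by
    by_contra hcon
    push Not at hcon
    have hdisj : (F : Set Ω).PairwiseDisjoint (fun y => Finset.univ.filter (T w y)) := by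
      intro y hy y' hy' hne
      simp only [Function.onFun]
      rw [Finset.disjoint_left]
      intro z hz hz'
      simp only [Finset.mem_filter, Finset.mem_univ, true_and] at hz hz'
      exact hcon y hy y' hy' hne (S.trans hz (S.symm hz'))
    have hcard := Finset.card_biUnion hdisj
    have hsub : F.biUnion (fun y => Finset.univ.filter (T w y)) ⊆ Finset.univ.erase w := by
      intro z hz
      simp only [Finset.mem_biUnion, Finset.mem_filter, Finset.mem_univ, true_and] at hz
      obtain ⟨y, _, hy⟩ := hz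
      simp only [Finset.mem_erase, Finset.mem_univ, and_true]
      exact (S.ne hy).2
    have hle := Finset.card_le_card hsub
    rw [hcard, Finset.card_erase_of_mem (Finset.mem_univ _), Finset.card_univ, hΩ] at hle
    have hsum : ∑ y ∈ F, (Finset.univ.filter (T w y)).card = (p + 1) * p := by
      rw [Finset.sum_congr rfl (fun y hy => hcardc (y := y) (x := w) (by
        rintro rfl; exact hw hy)), Finset.sum_const, hF, smul_eq_mul]
    rw [hsum] at hle
    simp only [Nat.add_sub_cancel] at hle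
    nlinarith
  obtain ⟨y, hy, y', hy', hne, hT⟩ := hpair
  have hwy : w ≠ y := by rintro rfl; exact hw hy
  have hy'w : y' ≠ w := (S.ne hT).2
  have h1 : T y w y' := (hall hwy y' hy'w hne.symm).1 hT
  exact hw (hcl y y' hy hy' hne w (S.symm h1))

/-- A `G_a`-invariant equivalence relation on `Ω ∖ {a}` with classes of size `p`. -/
structure Base (G : Type*) {Ω : Type*} [Group G] [MulAction G Ω] (p : ℕ) (a : Ω)
    (r : Ω → Ω → Prop) : Prop where
  ne : ∀ {c d}, r c d → c ≠ a ∧ d ≠ a
  refl : ∀ {c}, c ≠ a → r c c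
  symm : ∀ {c d}, r c d → r d c
  trans : ∀ {c d e}, r c d → r d e → r c e
  inv : ∀ (g : G), g • a = a → ∀ {c d}, r c d → r (g • c) (g • d)
  card : ∀ {c}, c ≠ a → Set.ncard {d | r c d} = p

/-- Transport of a base relation to all centres. -/
def lift (G : Type*) {Ω : Type*} [Group G] [MulAction G Ω] (a : Ω) (r : Ω → Ω → Prop) :
    Ω → Ω → Ω → Prop :=
  fun x y z => ∃ g : G, g • a = x ∧ r (g⁻¹ • y) (g⁻¹ • z)

theorem lift_smul {p : ℕ} {a : Ω} {r : Ω → Ω → Prop} (B : Base G p a r) (g : G) (y z : Ω) :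
    lift G a r (g • a) y z ↔ r (g⁻¹ • y) (g⁻¹ • z) := by
  constructor
  · rintro ⟨k, hk, h⟩
    have hk' : (g⁻¹ * k) • a = a := by
      rw [mul_smul, hk, inv_smul_smul]
    have h2 := B.inv _ hk' h
    simpa only [mul_smul, smul_inv_smul] using h2
  · intro h
    exact ⟨g, rfl, h⟩

theorem lift_base {p : ℕ} {a : Ω} {r : Ω → Ω → Prop} (B : Base G p a r) (y z : Ω) :
    lift G a r a y z ↔ r y z := by
  have h := lift_smul B (1 : G) y z
  simpa only [one_smul, inv_one] using h

theorem Base.sys {p : ℕ} {a : Ω} {r : Ω → Ω → Prop} (B : Base G p a r)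
    (htr : ∀ x : Ω, ∃ g : G, g • a = x) : Sys G p (lift G a r) := by
  refine ⟨?_, ?_, ?_, ?_, ?_, ?_⟩
  · rintro x y z ⟨g, rfl, h⟩
    obtain ⟨h1, h2⟩ := B.ne h
    constructor
    · intro h3; apply h1; rw [h3, inv_smul_smul]
    · intro h3; apply h2; rw [h3, inv_smul_smul]
  · intro x y hy
    obtain ⟨g, rfl⟩ := htr x
    refine ⟨g, rfl, B.refl ?_⟩
    intro h; apply hy; rw [← h, smul_inv_smul]
  · rintro x y z ⟨g, rfl, h⟩
    exact ⟨g, rfl, B.symm h⟩
  · rintro x y z w ⟨g, rfl, h⟩ h'
    rw [lift_smul B] at h'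
    exact ⟨g, rfl, B.trans h h'⟩
  · rintro g x y z ⟨k, rfl, h⟩
    refine ⟨g * k, mul_smul _ _ _, ?_⟩
    simpa only [mul_inv_rev, mul_smul, inv_smul_smul] using h
  · intro x y hy
    obtain ⟨g, rfl⟩ := htr x
    have h0 : g⁻¹ • y ≠ a := by
      intro h; apply hy; rw [← h, smul_inv_smul]
    have hset : {z | lift G a r (g • a) y z} = (fun d => g • d) '' {d | r (g⁻¹ • y) d} := by
      ext z
      simp only [Set.mem_setOf_eq, Set.mem_image]
      rw [lift_smul B]
      constructor
      · intro h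
        exact ⟨g⁻¹ • z, h, smul_inv_smul _ _⟩
      · rintro ⟨d, hd, rfl⟩
        simpa only [inv_smul_smul] using hd
    rw [hset, Set.ncard_image_of_injective _ (MulAction.injective g), B.card h0]

/-- A non-trivial block of the action of `G_a` on `Ω ∖ {a}` yields a base relation. -/
theorem exists_base_of_not_prim [Fintype Ω] {p : ℕ} (hp : p.Prime)
    (hΩ : Fintype.card Ω = p ^ 2 + 1)
    (h2 : ∀ {u v u' v' : Ω}, u ≠ v → u' ≠ v' → ∃ g : G, g • u = u' ∧ g • v = v') (a : Ω)
    (hnp : ¬ IsPreprimitive (stabilizer G a) (SubMulAction.ofStabilizer G a)) :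
    ∃ r, Base G p a r := by
  classical
  have hpre : IsPretransitive (stabilizer G a) (SubMulAction.ofStabilizer G a) := by
    constructor
    rintro ⟨c, hc⟩ ⟨d, hd⟩
    have hc' : c ≠ a := (SubMulAction.mem_ofStabilizer_iff G a).1 hc
    have hd' : d ≠ a := (SubMulAction.mem_ofStabilizer_iff G a).1 hd
    obtain ⟨g, hg1, hg2⟩ := h2 (u := a) (v := c) (u' := a) (v' := d) hc'.symm hd'.symm
    exact ⟨⟨g, hg1⟩, Subtype.ext hg2⟩
  have hcard : Nat.card (SubMulAction.ofStabilizer G a) = p ^ 2 := by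
    have := SubMulAction.nat_card_ofStabilizer_add_one_eq G a
    rw [Nat.card_eq_fintype_card (α := Ω), hΩ] at this
    omega
  have hB : ∃ B : Set (SubMulAction.ofStabilizer G a), IsBlock (stabilizer G a) B ∧
      ¬ IsTrivialBlock B := by
    by_contra hcon
    push Not at hcon
    exact hnp { toIsPretransitive := hpre, isTrivialBlock_of_isBlock := fun {B} h => hcon B h }
  obtain ⟨B, hB, hBt⟩ := hB
  have hBne : B.Nonempty := by
    by_contra h
    rw [Set.not_nonempty_iff_eq_empty] at h
    exact hBt (Or.inl (by simp [h]))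
  have hncard : Set.ncard B = p := by
    have hd := hB.ncard_dvd_card hBne
    rw [hcard] at hd
    obtain ⟨i, hi, hd2⟩ := (Nat.dvd_prime_pow hp).1 hd
    interval_cases i
    · exfalso
      apply hBt
      left
      rw [pow_zero] at hd2
      exact (Set.ncard_le_one_iff_subsingleton (s := B)).1 (by omega)
    · simpa using hd2
    · exfalso
      apply hBt
      right
      apply Set.eq_of_subset_of_ncard_le (Set.subset_univ _)
      rw [Set.ncard_univ, hcard, hd2]
  have hkey : ∀ (k k' : stabilizer G a) (x y : SubMulAction.ofStabilizer G a), k • x ∈ B → k' • x ∈ B →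
      k • y ∈ B → k' • y ∈ B := by
    intro k k' x y h1 h2 h3
    have h4 : (k' * k⁻¹) • B = B := by
      apply hB.smul_eq_of_nonempty
      refine ⟨k' • x, ?_, h2⟩
      rw [Set.mem_smul_set]
      exact ⟨k • x, h1, by rw [mul_smul, inv_smul_smul]⟩
    rw [← h4, Set.mem_smul_set]
    exact ⟨k • y, h3, by rw [mul_smul, inv_smul_smul]⟩
  let pt : ∀ c : Ω, c ≠ a → SubMulAction.ofStabilizer G a := fun c hc =>
    ⟨c, (SubMulAction.mem_ofStabilizer_iff G a).2 hc⟩
  let r : Ω → Ω → Prop := fun c d => ∃ (hc : c ≠ a) (hd : d ≠ a) (k : stabilizer G a),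
    k • pt c hc ∈ B ∧ k • pt d hd ∈ B
  refine ⟨r, ?_⟩
  have hex : ∀ {c} (hc : c ≠ a), ∃ k : stabilizer G a, k • pt c hc ∈ B := by
    intro c hc
    obtain ⟨y, hy⟩ := hBne
    obtain ⟨k, hk⟩ := hpre.exists_smul_eq (pt c hc) y
    exact ⟨k, by rw [hk]; exact hy⟩
  refine ⟨?_, ?_, ?_, ?_, ?_, ?_⟩
  · rintro c d ⟨hc, hd, _⟩
    exact ⟨hc, hd⟩
  · intro c hc
    obtain ⟨k, hk⟩ := hex hc
    exact ⟨hc, hc, k, hk, hk⟩
  · rintro c d ⟨hc, hd, k, h1, h2⟩
    exact ⟨hd, hc, k, h2, h1⟩
  · rintro c d e ⟨hc, hd, k, h1, h2⟩ ⟨hd', he, k', h3, h4⟩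
    refine ⟨hc, he, k, h1, ?_⟩
    exact hkey k' k (pt d hd) (pt e he) h3 h2 h4
  · rintro g hg c d ⟨hc, hd, k, h1, h2⟩
    have hgc : g • c ≠ a := by
      intro h; apply hc
      have := congrArg (fun x => g⁻¹ • x) h
      simp only [inv_smul_smul] at this
      rw [this, inv_smul_eq_iff, hg]
    have hgd : g • d ≠ a := by
      intro h; apply hd
      have := congrArg (fun x => g⁻¹ • x) h
      simp only [inv_smul_smul] at this
      rw [this, inv_smul_eq_iff, hg]
    refine ⟨hgc, hgd, k * ⟨g, hg⟩⁻¹, ?_, ?_⟩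
    · convert h1 using 1
      apply Subtype.ext
      simp [pt, mul_smul, Subgroup.smul_def, SubMulAction.val_smul]
    · convert h2 using 1
      apply Subtype.ext
      simp [pt, mul_smul, Subgroup.smul_def, SubMulAction.val_smul]
  · intro c hc
    obtain ⟨k, hk⟩ := hex hc
    have hset : {d | r c d} = (fun y : SubMulAction.ofStabilizer G a => (((k⁻¹ • y :
        SubMulAction.ofStabilizer G a)) : Ω)) '' B := by
      ext d
      simp only [Set.mem_setOf_eq, Set.mem_image]
      constructor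
      · rintro ⟨_, hd, k', h1, h2⟩
        have h3 := hkey k' k (pt c hc) (pt d hd) h1 hk h2
        refine ⟨k • pt d hd, h3, ?_⟩
        rw [inv_smul_smul]
      · rintro ⟨y, hy, rfl⟩
        have hd : ((k⁻¹ • y : SubMulAction.ofStabilizer G a) : Ω) ≠ a :=
          (SubMulAction.mem_ofStabilizer_iff G a).1 (k⁻¹ • y).2
        refine ⟨hc, hd, k, hk, ?_⟩
        have : pt _ hd = k⁻¹ • y := Subtype.ext rfl
        rw [this, smul_inv_smul]
        exact hy
    rw [hset, Set.ncard_image_of_injective, hncard]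
    intro y y' h
    have h' : k⁻¹ • y = k⁻¹ • y' := Subtype.ext h
    exact MulAction.injective _ h'

end Cfsg.Agent.Lib.DPrimA
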