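import Mathlib
import Cfsg.Agent.Lib.DPrimA

set_option autoImplicit false

namespace Cfsg.Agent.Lib.DPrimB

open MulAction Cfsg.Agent.Lib.DPrimA

variable {G Ω : Type*} [Group G] [MulAction G Ω]

/-- The orbit of `c` under the subgroup `K`, as a subset of `Ω`. -/
def orbS (K : Subgroup G) (c : Ω) : Set Ω := {d | ∃ k ∈ K, k • c = d}

theorem card_orbS [Finite G] (K : Subgroup G) (c : Ω) :
    Nat.card K = (orbS K c).ncard * Nat.card ↥(K ⊓ stabilizer G c) := by
  have h := Nat.card_congr (MulAction.orbitProdStabilizerEquivGroup K c)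
  rw [Nat.card_prod] at h
  have h1 : orbit K c = orbS K c := by
    ext d
    simp only [mem_orbit_iff, orbS, Set.mem_setOf_eq, Subtype.exists, Subgroup.mk_smul, exists_prop]
  have h2 : Nat.card (stabilizer K c) = Nat.card ↥(K ⊓ stabilizer G c) := by
    apply Nat.card_congr
    refine ⟨fun x => ⟨x.1.1, Subgroup.mem_inf.2 ⟨x.1.2, x.2⟩⟩,
      fun x => ⟨⟨x.1, (Subgroup.mem_inf.1 x.2).1⟩, (Subgroup.mem_inf.1 x.2).2⟩, ?_, ?_⟩
    · intro x; rfl
    · intro x; rfl
  rw [← h, ← h1, Nat.card_coe_set_eq, h2]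

theorem card_inf_stab [Finite G] (g : G) (a b : Ω) :
    Nat.card ↥(stabilizer G (g • a) ⊓ stabilizer G (g • b)) =
      Nat.card ↥(stabilizer G a ⊓ stabilizer G b) := by
  apply Nat.card_congr
  refine ⟨fun x => ⟨g⁻¹ * x.1 * g, Subgroup.mem_inf.2 ⟨?_, ?_⟩⟩,
    fun x => ⟨g * x.1 * g⁻¹, Subgroup.mem_inf.2 ⟨?_, ?_⟩⟩, ?_, ?_⟩
  · have : x.1 • (g • a) = g • a := (Subgroup.mem_inf.1 x.2).1
    rw [mem_stabilizer_iff]
    rw [mul_smul, mul_smul, this, inv_smul_smul]
  · have : x.1 • (g • b) = g • b := (Subgroup.mem_inf.1 x.2).2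
    rw [mem_stabilizer_iff]
    rw [mul_smul, mul_smul, this, inv_smul_smul]
  · have : x.1 • a = a := (Subgroup.mem_inf.1 x.2).1
    rw [mem_stabilizer_iff]
    rw [mul_smul, mul_smul, inv_smul_smul, this]
  · have : x.1 • b = b := (Subgroup.mem_inf.1 x.2).2
    rw [mem_stabilizer_iff]
    rw [mul_smul, mul_smul, inv_smul_smul, this]
  · intro x
    apply Subtype.ext
    simp [mul_assoc]
  · intro x
    apply Subtype.ext
    simp [mul_assoc]

/-- A `p`-group acting on fewer than `p` points fixes them all. -/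
theorem fix_of_small [Finite G] {p : ℕ} (hp : p.Prime) (Q : Subgroup G) (hQ : IsPGroup p Q)
    (X : Set Ω) [Finite X] (hX : X.ncard < p) (hinv : ∀ q ∈ Q, ∀ x ∈ X, q • x ∈ X) :
    ∀ q ∈ Q, ∀ x ∈ X, q • x = x := by
  intro q hq x hx
  haveI : Fact p.Prime := ⟨hp⟩
  have h := card_orbS Q x
  have hsub : orbS Q x ⊆ X := by
    rintro _ ⟨k, hk, rfl⟩
    exact hinv k hk x hx
  have hle : (orbS Q x).ncard ≤ X.ncard := Set.ncard_le_ncard hsub (Set.toFinite _)
  obtain ⟨n, hn⟩ := IsPGroup.iff_card.1 hQ
  have hd : (orbS Q x).ncard ∣ p ^ n := by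
    rw [← hn, h]
    exact dvd_mul_right _ _
  obtain ⟨i, _, hi⟩ := (Nat.dvd_prime_pow hp).1 hd
  have hi0 : i = 0 := by
    by_contra hne
    have : p ≤ p ^ i := Nat.le_self_pow hne p
    omega
  rw [hi0, pow_zero] at hi
  have hmem : q • x ∈ orbS Q x := ⟨q, hq, rfl⟩
  have hmem2 : x ∈ orbS Q x := ⟨1, Q.one_mem, one_smul _ _⟩
  have hfin : (orbS Q x).Finite := (Set.toFinite X).subset hsub
  have hle1 : (orbS Q x).ncard ≤ 1 := by omega
  exact (Set.ncard_le_one_iff hfin).1 hle1 hmem hmem2

/-- Symmetry from one implication. -/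
theorem symm_of_imp [Fintype Ω] {p : ℕ} {T : Ω → Ω → Ω → Prop} (S : Sys G p T) {a b : Ω} (hab : a ≠ b)
    (hi : ∀ c, c ≠ a → c ≠ b → T b a c → T a b c) :
    ∀ c, c ≠ a → c ≠ b → (T a b c ↔ T b a c) := by
  classical
  let A : Finset Ω := (Finset.univ.filter (T a b)).erase b
  let B : Finset Ω := (Finset.univ.filter (T b a)).erase a
  have hcardc : ∀ {x y : Ω}, y ≠ x → (Finset.univ.filter (T x y)).card = p := by
    intro x y hy
    have h := S.card hy
    rw [← Set.ncard_coe_finset]
    rw [← h]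
    congr 1
    ext z; simp
  have hA : A.card = p - 1 := by
    rw [Finset.card_erase_of_mem (by simp [S.refl hab.symm]), hcardc hab.symm]
  have hB : B.card = p - 1 := by
    rw [Finset.card_erase_of_mem (by simp [S.refl hab]), hcardc hab]
  have hsub : B ⊆ A := by
    intro c hc
    simp only [B, Finset.mem_erase, Finset.mem_filter, Finset.mem_univ, true_and] at hc
    simp only [A, Finset.mem_erase, Finset.mem_filter, Finset.mem_univ, true_and]
    have hcb : c ≠ b := (S.ne hc.2).2
    exact ⟨hcb, hi c hc.1 hcb hc.2⟩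
  have heq : B = A := Finset.eq_of_subset_of_card_le hsub (by omega)
  intro c hca hcb
  constructor
  · intro h
    have : c ∈ A := by simp [A, hcb, h]
    rw [← heq] at this
    simp only [B, Finset.mem_erase, Finset.mem_filter, Finset.mem_univ, true_and] at this
    exact this.2
  · exact hi c hca hcb

/-- The Sylow data. -/
structure PD (G : Type*) {Ω : Type*} [Group G] [MulAction G Ω] (p : ℕ) (a b : Ω) (P : Subgroup G) :
    Prop where
  le : P ≤ stabilizer G a
  card : Nat.card P = p ^ 2
  comm : ∀ x ∈ P, ∀ y ∈ P, x * y = y * x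
  trans : ∀ c, c ≠ a → ∃ v ∈ P, v • b = c
  free : ∀ v ∈ P, ∀ c, c ≠ a → v • c = c → v = 1
  syl : ∀ y : G, y • a = a → (∃ k : ℕ, y ^ (p ^ k) = 1) → ∃ g : G, g • a = a ∧ g * y * g⁻¹ ∈ P

theorem exists_PD [Finite G] [Fintype Ω] [FaithfulSMul G Ω] {p : ℕ} (hp : p.Prime)
    (hΩ : Fintype.card Ω = p ^ 2 + 1)
    (h2 : ∀ {u v u' v' : Ω}, u ≠ v → u' ≠ v' → ∃ g : G, g • u = u' ∧ g • v = v')
    {T : Ω → Ω → Ω → Prop} (S : Sys G p T) {a b : Ω} (hab : a ≠ b) :
    ¬ p ∣ Nat.card ↥(stabilizer G a ⊓ stabilizer G b) ∧ ∃ P : Subgroup G, PD G p a b P := by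
  classical
  haveI : Fact p.Prime := ⟨hp⟩
  set H : Subgroup G := stabilizer G a ⊓ stabilizer G b with hH
  have hHpos : 0 < Nat.card H := Nat.card_pos
  have hcard2 : ∀ d, d ≠ a → Nat.card ↥(stabilizer G a ⊓ stabilizer G d) = Nat.card H := by
    intro d hd
    obtain ⟨g, hg1, hg2⟩ := h2 hab hd.symm
    have := card_inf_stab g a b
    rwa [hg1, hg2] at this
  have hcompl : ({a}ᶜ : Set Ω).ncard = p ^ 2 := by
    rw [Set.ncard_compl, Set.ncard_singleton, Nat.card_eq_fintype_card, hΩ]
    omega
  have horb : orbS (stabilizer G a) b = {a}ᶜ := by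
    ext d
    simp only [orbS, Set.mem_setOf_eq, Set.mem_compl_iff, Set.mem_singleton_iff]
    constructor
    · rintro ⟨k, hk, rfl⟩ h
      rw [mem_stabilizer_iff] at hk
      apply hab
      have := congrArg (fun x => k⁻¹ • x) h
      simp only [inv_smul_smul] at this
      rw [this, eq_inv_smul_iff, hk]
    · intro hd
      obtain ⟨g, hg1, hg2⟩ := h2 hab (Ne.symm hd)
      exact ⟨g, hg1, hg2⟩
  have hGa : Nat.card (stabilizer G a) = p ^ 2 * Nat.card H := by
    rw [card_orbS (stabilizer G a) b, horb, hcompl]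
  -- the Sylow subgroup
  obtain ⟨S₀⟩ : Nonempty (Sylow p (stabilizer G a)) := inferInstance
  set f := (Nat.card H).factorization p with hf
  have hS₀ : Nat.card S₀ = p ^ (f + 2) := by
    rw [Sylow.card_eq_multiplicity, hGa, Nat.factorization_mul (pow_ne_zero _ hp.ne_zero) hHpos.ne']
    simp only [Finsupp.coe_add, Pi.add_apply, Nat.factorization_pow, Finsupp.smul_apply]
    rw [Nat.Prime.factorization_self hp]
    congr 1
    simp [hf]
    omega
  let P : Subgroup G := (S₀ : Subgroup (stabilizer G a)).map (stabilizer G a).subtype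
  have hPcard : Nat.card P = p ^ (f + 2) := by
    rw [← hS₀]
    exact Nat.card_congr (Subgroup.equivMapOfInjective _ _ Subtype.val_injective).symm.toEquiv
  have hPle : P ≤ stabilizer G a := by
    rintro _ ⟨x, _, rfl⟩
    exact x.2
  have hPp : IsPGroup p P := IsPGroup.of_card hPcard
  have hQd : ∀ d, d ≠ a → Nat.card ↥(P ⊓ stabilizer G d) = p ^ f ∧ orbS P d = {a}ᶜ := by
    intro d hd
    have h1 := card_orbS P d
    have hsubp : IsPGroup p ↥(P ⊓ stabilizer G d) := hPp.to_le inf_le_left
    obtain ⟨j, hj⟩ := IsPGroup.iff_card.1 hsubp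
    have hdvd : p ^ j ∣ Nat.card H := by
      rw [← hj, ← hcard2 d hd]
      exact Subgroup.card_dvd_of_le (inf_le_inf_right _ hPle)
    have hjf : j ≤ f := (hp.pow_dvd_iff_le_factorization hHpos.ne').1 hdvd
    have hsub : orbS P d ⊆ {a}ᶜ := by
      rintro _ ⟨k, hk, rfl⟩ h
      have hka := hPle hk
      rw [mem_stabilizer_iff] at hka
      apply hd
      simp only [Set.mem_singleton_iff] at h
      have := congrArg (fun x => k⁻¹ • x) h
      simp only [inv_smul_smul] at this
      rw [this, inv_smul_eq_iff, hka]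
    have hle : (orbS P d).ncard ≤ p ^ 2 := by
      rw [← hcompl]
      exact Set.ncard_le_ncard hsub (Set.toFinite _)
    rw [hPcard, hj] at h1
    have hle2 : p ^ (f + 2) ≤ p ^ 2 * p ^ j := by
      rw [h1]
      exact Nat.mul_le_mul_right _ hle
    rw [← pow_add] at hle2
    have hle3 : f + 2 ≤ 2 + j := (Nat.pow_le_pow_iff_right hp.one_lt).1 hle2
    have hjeq : j = f := by omega
    subst hjeq
    refine ⟨hj, ?_⟩
    apply Set.eq_of_subset_of_ncard_le hsub
    rw [hcompl]
    have h3 : p ^ (f + 2) = p ^ 2 * p ^ f := by ring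
    rw [h3] at h1
    have := Nat.eq_of_mul_eq_mul_right (pow_pos hp.pos _) h1
    omega
  -- the main point: `f = 0`
  have hf0 : f = 0 := by
    by_contra hfne
    set Q : Subgroup G := P ⊓ stabilizer G b with hQ
    have hQcard : Nat.card Q = p ^ f := (hQd b hab.symm).1
    have hQp : IsPGroup p Q := hPp.to_le inf_le_left
    -- the points fixed by `Q` with the same stabilizer
    have hfixQ : ∀ c, c ≠ a → (∀ q ∈ Q, q • c = c) → P ⊓ stabilizer G c = Q := by
      intro c hc hqc
      symm
      apply Subgroup.eq_of_le_of_card_ge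
      · intro q hq
        exact Subgroup.mem_inf.2 ⟨(Subgroup.mem_inf.1 hq).1, hqc q hq⟩
      · rw [(hQd c hc).1, hQcard]
    let N : Subgroup G := P ⊓ Subgroup.normalizer (Q : Set G)
    have hconj : ∀ v ∈ P, P ⊓ stabilizer G (v • b) = Q → v ∈ N := by
      intro v hv hst
      refine Subgroup.mem_inf.2 ⟨hv, ?_⟩
      rw [Subgroup.mem_normalizer_iff]
      intro q
      constructor
      · intro hq
        rw [← hst]
        refine Subgroup.mem_inf.2 ⟨P.mul_mem (P.mul_mem hv (Subgroup.mem_inf.1 hq).1) (P.inv_mem hv), ?_⟩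
        rw [mem_stabilizer_iff]
        have h5 : q • b = b := (Subgroup.mem_inf.1 hq).2
        simp only [mul_smul, inv_smul_smul, h5]
      · intro hq
        rw [← hst] at hq
        have h6 := (Subgroup.mem_inf.1 hq).2
        rw [mem_stabilizer_iff] at h6
        simp only [mul_smul, inv_smul_smul] at h6
        have h7 : q • b = b := by
          have := congrArg (fun x => v⁻¹ • x) h6
          simpa only [inv_smul_smul] using this
        have h8 : q ∈ P := by
          have := P.mul_mem (P.mul_mem (P.inv_mem hv) (Subgroup.mem_inf.1 hq).1) hv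
          simpa [mul_assoc] using this
        exact Subgroup.mem_inf.2 ⟨h8, h7⟩
    have hNmem : ∀ c, c ≠ a → (∀ q ∈ Q, q • c = c) → c ∈ orbS N b := by
      intro c hc hqc
      obtain ⟨v, hv, rfl⟩ : ∃ v ∈ P, v • b = c := by
        have : c ∈ orbS P b := by
          rw [(hQd b hab.symm).2]
          exact hc
        exact this
      exact ⟨v, hconj v hv (hfixQ _ hc hqc), rfl⟩
    have hQa : ∀ q ∈ Q, q • a = a := fun q hq => hPle (Subgroup.mem_inf.1 hq).1
    have hQb : ∀ q ∈ Q, q • b = b := fun q hq => (Subgroup.mem_inf.1 hq).2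
    -- `Q` fixes the class of `b` at `a`
    have hcl1 : ∀ c, T a b c → ∀ q ∈ Q, q • c = c := by
      intro c hc q hq
      by_cases hcb : c = b
      · rw [hcb]; exact hQb q hq
      · have hsmall : ({z | T a b z} \ {b} : Set Ω).ncard < p := by
          have hm : b ∈ {z | T a b z} := S.refl hab.symm
          rw [Set.ncard_diff_singleton_of_mem hm, S.card hab.symm]
          have := hp.two_le
          omega
        refine fix_of_small hp Q hQp _ hsmall ?_ q hq c ⟨hc, hcb⟩
        rintro q' hq' x ⟨hx1, hx2⟩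
        refine ⟨?_, ?_⟩
        · have := S.inv q' hx1
          rwa [hQa q' hq', hQb q' hq'] at this
        · intro h
          apply hx2
          have h5 : q' • x = q' • b := by rw [hQb q' hq']; exact h
          exact MulAction.injective q' h5
    have hcl2 : ∀ c, T b a c → ∀ q ∈ Q, q • c = c := by
      intro c hc q hq
      by_cases hca : c = a
      · rw [hca]; exact hQa q hq
      · have hsmall : ({z | T b a z} \ {a} : Set Ω).ncard < p := by
          have hm : a ∈ {z | T b a z} := S.refl hab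
          rw [Set.ncard_diff_singleton_of_mem hm, S.card hab]
          have := hp.two_le
          omega
        refine fix_of_small hp Q hQp _ hsmall ?_ q hq c ⟨hc, hca⟩
        rintro q' hq' x ⟨hx1, hx2⟩
        refine ⟨?_, ?_⟩
        · have := S.inv q' hx1
          rwa [hQa q' hq', hQb q' hq'] at this
        · intro h
          apply hx2
          have h5 : q' • x = q' • a := by rw [hQa q' hq']; exact h
          exact MulAction.injective q' h5
    have hNP : IsPGroup p N := hPp.to_le inf_le_left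
    have hNcard := card_orbS N b
    obtain ⟨i, hi⟩ := IsPGroup.iff_card.1 hNP
    have hdvd : (orbS N b).ncard ∣ p ^ i := by
      rw [← hi, hNcard]
      exact dvd_mul_right _ _
    obtain ⟨k, _, hk⟩ := (Nat.dvd_prime_pow hp).1 hdvd
    have hNsub : orbS N b ⊆ {a}ᶜ := by
      rw [← (hQd b hab.symm).2]
      rintro _ ⟨x, hx, rfl⟩
      exact ⟨x, (Subgroup.mem_inf.1 hx).1, rfl⟩
    have hNle : (orbS N b).ncard ≤ p ^ 2 := by
      rw [← hcompl]
      exact Set.ncard_le_ncard hNsub (Set.toFinite _)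
    have hclsub : {z | T a b z} ⊆ orbS N b := by
      intro c hc
      exact hNmem c (S.ne hc).2 (hcl1 c hc)
    have hNge : p ≤ (orbS N b).ncard := by
      have := Set.ncard_le_ncard hclsub (Set.toFinite _)
      rwa [S.card hab.symm] at this
    have hk2 : k ≤ 2 := by
      rw [hk] at hNle
      exact (Nat.pow_le_pow_iff_right hp.one_lt).1 hNle
    have hk1 : 1 ≤ k := by
      by_contra hk0
      have : k = 0 := by omega
      rw [hk, this, pow_zero] at hNge
      have := hp.two_le
      omega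
    have hkne2 : k ≠ 2 := by
      intro hk22
      -- then `Q` fixes everything
      have hall : orbS N b = {a}ᶜ := by
        apply Set.eq_of_subset_of_ncard_le hNsub
        rw [hcompl, hk, hk22]
      have hQfix : ∀ q ∈ Q, ∀ c : Ω, q • c = c := by
        intro q hq c
        by_cases hca : c = a
        · rw [hca]; exact hQa q hq
        · have hcm : c ∈ orbS N b := by rw [hall]; exact hca
          obtain ⟨v, hv, rfl⟩ := hcm
          have hvq : v⁻¹ * q * v ∈ Q := by
            have h8 := (Subgroup.mem_normalizer_iff.1 (Subgroup.mem_inf.1 (N.inv_mem hv)).2 q).1 hq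
            simpa using h8
          have h9 : (v⁻¹ * q * v) • b = b := hQb _ hvq
          simp only [mul_smul] at h9
          have := congrArg (fun x => v • x) h9
          simpa only [smul_inv_smul] using this
      have hQbot : Q = ⊥ := by
        rw [eq_bot_iff]
        intro q hq
        rw [Subgroup.mem_bot]
        apply FaithfulSMul.eq_of_smul_eq_smul (α := Ω)
        intro c
        rw [one_smul]
        exact hQfix q hq c
      rw [hQbot, Subgroup.card_bot] at hQcard
      have : p ^ f ≠ 1 := by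
        have := Nat.one_lt_pow hfne hp.one_lt
        omega
      exact this hQcard.symm
    have hk11 : k = 1 := by omega
    have hNp : (orbS N b).ncard = p := by rw [hk, hk11, pow_one]
    have heq : {z | T a b z} = orbS N b := by
      apply Set.eq_of_subset_of_ncard_le hclsub
      rw [hNp, S.card hab.symm]
    have himp : ∀ c, c ≠ a → c ≠ b → T b a c → T a b c := by
      intro c hca hcb hT
      have : c ∈ orbS N b := hNmem c hca (hcl2 c hT)
      rw [← heq] at this
      exact this
    exact S.false_of_symm hp.two_le hΩ h2 hab (symm_of_imp S hab himp)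
  refine ⟨?_, P, ?_⟩
  · intro hdvd
    have : 1 ≤ f := by
      have := (hp.pow_dvd_iff_le_factorization hHpos.ne').1 (by simpa using hdvd : p ^ 1 ∣ Nat.card H)
      omega
    omega
  have hPc2 : Nat.card P = p ^ 2 := by rw [hPcard, hf0]
  refine ⟨hPle, hPc2, ?_, ?_, ?_, ?_⟩
  · intro x hx y hy
    have := IsPGroup.commutative_of_card_eq_prime_sq (G := P) hPc2 ⟨x, hx⟩ ⟨y, hy⟩
    exact congrArg Subtype.val this
  · intro c hc
    have : c ∈ orbS P b := by
      rw [(hQd b hab.symm).2]
      exact hc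
    exact this
  · intro v hv c hc hvc
    have h1 := (hQd c hc).1
    rw [hf0, pow_zero] at h1
    have h3 : v ∈ P ⊓ stabilizer G c := Subgroup.mem_inf.2 ⟨hv, hvc⟩
    have h4 : (⟨v, h3⟩ : ↥(P ⊓ stabilizer G c)) = 1 := by
      have := (Nat.card_eq_one_iff_unique.1 h1).1
      exact Subsingleton.elim _ _
    exact congrArg Subtype.val h4
  · intro y hy ⟨k, hk⟩
    let y' : stabilizer G a := ⟨y, hy⟩
    have hy' : y' ^ (p ^ k) = 1 := Subtype.ext hk
    have hQ' : IsPGroup p (Subgroup.zpowers y') := by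
      rw [IsPGroup.iff_card]
      have hd : Nat.card (Subgroup.zpowers y') ∣ p ^ k := by
        rw [Nat.card_zpowers]
        exact orderOf_dvd_of_pow_eq_one hy'
      obtain ⟨i, _, hi⟩ := (Nat.dvd_prime_pow hp).1 hd
      exact ⟨i, hi⟩
    obtain ⟨S₁, hS₁⟩ := hQ'.exists_le_sylow
    obtain ⟨g, hg⟩ := MulAction.exists_smul_eq (stabilizer G a) S₁ S₀
    refine ⟨g.1, g.2, ?_⟩
    have h1 : y' ∈ (S₁ : Subgroup (stabilizer G a)) := hS₁ (Subgroup.mem_zpowers y')
    have h2 : g * y' * g⁻¹ ∈ (S₀ : Subgroup (stabilizer G a)) := by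
      rw [← hg]
      have := Subgroup.smul_mem_pointwise_smul y' (MulAut.conj g) (S₁ : Subgroup (stabilizer G a)) h1
      simpa [Sylow.coe_subgroup_smul] using this
    exact ⟨g * y' * g⁻¹, h2, rfl⟩

end Cfsg.Agent.Lib.DPrimB
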