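import Mathlib

set_option autoImplicit false

namespace Cfsg.Agent.Lib.DPrimC

open MonoidAlgebra

noncomputable section

/-- Pure arithmetic of the design. -/
theorem arith {p : ℕ} (hp : p.Prime) (hp2 : p ≠ 2) {α ν lam m : ℤ} (hα : α ^ 2 = ν ^ p)
    (h1 : ν + lam = m) (h2 : ν + lam * p = m ^ 2) (hm : 1 ≤ m) (hm2 : 2 * m ≤ p - 1)
    (hmod : ((α : ℤ) : ZMod p) = ((m : ℤ) : ZMod p)) : m = 1 := by
  haveI : Fact p.Prime := ⟨hp⟩
  have hp3 : (3 : ℤ) ≤ p := by
    have := hp.two_le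
    have : 3 ≤ p := by omega
    exact_mod_cast this
  have hlam : lam * (p - 1) = m * (m - 1) := by
    have : ν = m - lam := by linarith
    subst this
    nlinarith
  have hlam0 : 0 ≤ lam := by
    by_contra h
    push Not at h
    have h3 : lam * (p - 1) < 0 := by
      apply mul_neg_of_neg_of_pos h; linarith
    have h4 : 0 ≤ m * (m - 1) := by
      apply mul_nonneg <;> linarith
    linarith
  have hlam1 : lam < m := by
    by_contra h
    push Not at h
    have h3 : m * (p - 1) ≤ lam * (p - 1) := by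
      apply mul_le_mul_of_nonneg_right h; linarith
    rw [hlam] at h3
    have h4 : p - 1 ≤ m - 1 := le_of_mul_le_mul_left h3 (by linarith)
    linarith
  have hν : 1 ≤ ν := by linarith
  have hνm : ν ≤ m := by linarith
  obtain ⟨k, hk⟩ := hp.odd_of_ne_two hp2
  have hk' : p = 2 * k + 1 := hk
  have hsq : (ν ^ k) ^ 2 ∣ α ^ 2 := by
    rw [hα, hk']
    exact ⟨ν, by ring⟩
  have hdvd : ν ^ k ∣ α := (Int.pow_dvd_pow_iff (by norm_num)).1 hsq
  obtain ⟨c, hc⟩ := hdvd
  have hνk : ν ^ k ≠ 0 := pow_ne_zero _ (by linarith)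
  have hνc : ν = c ^ 2 := by
    have h3 : (ν ^ k) ^ 2 * c ^ 2 = (ν ^ k) ^ 2 * ν := by
      have := hα
      rw [hc, hk'] at this
      rw [← mul_pow, this]
      ring
    have h4 := mul_left_cancel₀ (pow_ne_zero 2 hνk) h3
    exact h4.symm
  have hαc : α = c ^ p := by
    rw [hc, hνc, hk', ← pow_mul]
    ring
  have hzc : ((α : ℤ) : ZMod p) = ((c : ℤ) : ZMod p) := by
    rw [hαc]
    push_cast
    exact ZMod.pow_card _
  have hdvd2 : (p : ℤ) ∣ m - c := by
    have h3 : ((m - c : ℤ) : ZMod p) = 0 := by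
      push_cast
      rw [← Int.cast_sub, ] 
      rw [Int.cast_sub, ← hmod, hzc, sub_self]
    exact (ZMod.intCast_zmod_eq_zero_iff_dvd _ _).1 h3
  have hcne : c ≠ 0 := by
    rintro rfl
    rw [hνc] at hν
    norm_num at hν
  have hcabs : |c| ≤ m := by
    have h3 : |c| ≤ c ^ 2 := by
      rw [← sq_abs c]
      have : 1 ≤ |c| := Int.one_le_abs hcne
      nlinarith
    linarith
  have hcle := abs_le.1 hcabs
  have hm0 : m - c = 0 := by
    apply Int.eq_zero_of_abs_lt_dvd hdvd2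
    rw [abs_lt]
    constructor <;> linarith [hcle.1, hcle.2]
  have hcm : c = m := by linarith
  rw [hcm] at hνc
  nlinarith

variable {A : Type*} [CommGroup A] [Fintype A]

theorem coeff_mul_fin (x y : MonoidAlgebra ℤ A) (g : A) :
    (x * y).coeff g = ∑ h : A, x.coeff h * y.coeff (h⁻¹ * g) := by
  rw [coeff_mul_apply_left, Finsupp.sum_fintype]
  intro i
  simp

/-- A "kernel" invariant under the permutation `π`. -/
def KInv (π : Equiv.Perm A) (r : MonoidAlgebra ℤ A) : Prop :=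
  ∀ v v', r.coeff ((π v)⁻¹ * π v') = r.coeff (v⁻¹ * v')

theorem KInv.mul {π : Equiv.Perm A} {x y : MonoidAlgebra ℤ A} (hx : KInv π x) (hy : KInv π y) :
    KInv π (x * y) := by
  intro v v'
  rw [coeff_mul_fin, coeff_mul_fin]
  rw [← Equiv.sum_comp (π.trans (Equiv.mulLeft (π v)⁻¹))]
  rw [← Equiv.sum_comp (Equiv.mulLeft v⁻¹) (fun h => x.coeff h * y.coeff (h⁻¹ * (v⁻¹ * v')))]
  apply Finset.sum_congr rfl
  intro e _
  simp only [Equiv.trans_apply, Equiv.coe_mulLeft]
  rw [hx v e]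
  congr 1
  have h1 : ((π v)⁻¹ * π e)⁻¹ * ((π v)⁻¹ * π v') = (π e)⁻¹ * π v' := by group
  have h2 : (v⁻¹ * e)⁻¹ * (v⁻¹ * v') = e⁻¹ * v' := by group
  rw [h1, h2, hy e v']

theorem KInv.one (π : Equiv.Perm A) : KInv π (1 : MonoidAlgebra ℤ A) := by
  classical
  intro v v'
  simp only [one_def, coeff_single, Finsupp.single_apply]
  have : (1 : A) = (π v)⁻¹ * π v' ↔ (1 : A) = v⁻¹ * v' := by
    rw [eq_comm, inv_mul_eq_one, eq_comm (a := (1 : A)), inv_mul_eq_one]
    exact π.injective.eq_iff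
  simp only [this]

theorem KInv.pow {π : Equiv.Perm A} {x : MonoidAlgebra ℤ A} (hx : KInv π x) (k : ℕ) :
    KInv π (x ^ k) := by
  induction k with
  | zero => simpa using KInv.one π
  | succ k ih => rw [pow_succ]; exact ih.mul hx

section Sums
variable [DecidableEq A]

/-- The element `∑_{w ∈ W} w` of the group ring. -/
def sumOf (W : Finset A) : MonoidAlgebra ℤ A := ∑ w ∈ W, single w (1 : ℤ)

theorem coeff_sumOf (W : Finset A) (g : A) : (sumOf W).coeff g = if g ∈ W then 1 else 0 := by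
  unfold sumOf
  rw [coeff_sum, Finsupp.finset_sum_apply]
  simp only [coeff_single, Finsupp.single_apply]
  rw [Finset.sum_ite_eq']

/-- Support in a coset of `U`. -/
def Supp (U : Subgroup A) (t : A) (r : MonoidAlgebra ℤ A) : Prop :=
  ∀ g, t⁻¹ * g ∉ U → r.coeff g = 0

theorem Supp.mul {U : Subgroup A} {t t' : A} {x y : MonoidAlgebra ℤ A} (hx : Supp U t x)
    (hy : Supp U t' y) : Supp U (t * t') (x * y) := by
  intro g hg
  rw [coeff_mul_fin]
  apply Finset.sum_eq_zero
  intro h _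
  by_cases h1 : t⁻¹ * h ∈ U
  · by_cases h2 : t'⁻¹ * (h⁻¹ * g) ∈ U
    · exfalso
      apply hg
      have := U.mul_mem h1 h2
      have h3 : t⁻¹ * h * (t'⁻¹ * (h⁻¹ * g)) = (t * t')⁻¹ * g := by
        rw [mul_inv_rev]
        calc t⁻¹ * h * (t'⁻¹ * (h⁻¹ * g)) = t⁻¹ * t'⁻¹ * (h * h⁻¹) * g := by
              simp only [mul_assoc, mul_comm, mul_left_comm]
          _ = t'⁻¹ * t⁻¹ * g := by rw [mul_inv_cancel, mul_one, mul_comm t⁻¹]
      rwa [h3] at this
    · rw [hy _ h2, mul_zero]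
  · rw [hx _ h1, zero_mul]

theorem Supp.one (U : Subgroup A) : Supp U 1 (1 : MonoidAlgebra ℤ A) := by
  intro g hg
  have : g ≠ 1 := by
    rintro rfl
    simp [U.one_mem] at hg
  simp only [one_def, coeff_single, Finsupp.single_apply]
  rw [if_neg this.symm]

theorem Supp.pow {U : Subgroup A} {t : A} {x : MonoidAlgebra ℤ A} (hx : Supp U t x) (k : ℕ) :
    Supp U (t ^ k) (x ^ k) := by
  induction k with
  | zero => simpa using Supp.one U
  | succ k ih => rw [pow_succ, pow_succ]; exact ih.mul hx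

/-- The norm element of `U`. -/
def nrm (U : Subgroup A) [DecidablePred (· ∈ U)] : MonoidAlgebra ℤ A :=
  sumOf (Finset.univ.filter (· ∈ U))

theorem coeff_nrm (U : Subgroup A) [DecidablePred (· ∈ U)] (g : A) :
    (nrm U).coeff g = if g ∈ U then 1 else 0 := by
  unfold nrm
  rw [coeff_sumOf]
  simp

theorem nrm_sq (U : Subgroup A) [DecidablePred (· ∈ U)] :
    nrm U * nrm U = ((Nat.card U : ℤ) : MonoidAlgebra ℤ A) * nrm U := by
  have hcast : ∀ (a : ℤ) (r : MonoidAlgebra ℤ A), ((a : MonoidAlgebra ℤ A) * r) = a • r := by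
    intro a r
    rw [zsmul_eq_mul]
  rw [hcast]
  ext g
  rw [coeff_mul_fin]
  simp only [coeff_smul, Finsupp.smul_apply, coeff_nrm, smul_eq_mul]
  by_cases hg : g ∈ U
  · simp only [hg, if_true, mul_one]
    have : ∀ h : A, (if h ∈ U then (1 : ℤ) else 0) * (if h⁻¹ * g ∈ U then 1 else 0) =
        if h ∈ U then 1 else 0 := by
      intro h
      by_cases hh : h ∈ U
      · simp [hh, U.mul_mem (U.inv_mem hh) hg]
      · simp [hh]
    rw [Finset.sum_congr rfl (fun h _ => this h)]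
    rw [Finset.sum_boole]
    simp only [Int.natCast_inj]
    rw [Nat.card_eq_fintype_card, Fintype.card_subtype]
  · simp only [hg, if_false, mul_zero]
    apply Finset.sum_eq_zero
    intro h _
    by_cases hh : h ∈ U
    · have : h⁻¹ * g ∉ U := fun h2 => hg (by
        have := U.mul_mem hh h2
        simpa using this)
      simp [this]
    · simp [hh]

/-- Elements supported on `U` with coefficients constant off `1`. -/
theorem form (U : Subgroup A) [DecidablePred (· ∈ U)] {r : MonoidAlgebra ℤ A} {y₀ : A} (hy₀ : y₀ ∈ U)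
    (hy₀1 : y₀ ≠ 1) (hs : ∀ g, g ∉ U → r.coeff g = 0)
    (hc : ∀ y, y ∈ U → y ≠ 1 → r.coeff y = r.coeff y₀) :
    r = ((r.coeff 1 - r.coeff y₀ : ℤ) : MonoidAlgebra ℤ A) + ((r.coeff y₀ : ℤ) : MonoidAlgebra ℤ A) * nrm U := by
  have hcast : ∀ (a : ℤ) (s : MonoidAlgebra ℤ A), ((a : MonoidAlgebra ℤ A) * s) = a • s := by
    intro a s
    rw [zsmul_eq_mul]
  have hcast2 : ∀ a : ℤ, ((a : MonoidAlgebra ℤ A)) = single (1 : A) a := by
    intro a
    have h : ((a : ℤ) : MonoidAlgebra ℤ A) = algebraMap ℤ (MonoidAlgebra ℤ A) a :=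
      (eq_intCast (algebraMap ℤ (MonoidAlgebra ℤ A)) a).symm
    rw [h, coe_algebraMap]
    simp
  rw [hcast, hcast2]
  ext g
  simp only [coeff_add, Finsupp.add_apply, coeff_single, coeff_smul, Finsupp.smul_apply, coeff_nrm, smul_eq_mul, Finsupp.single_apply]
  by_cases hg : g ∈ U
  · by_cases hg1 : g = 1
    · subst hg1
      simp [U.one_mem]
    · simp [hg, hg1, hc g hg hg1, Ne.symm hg1]
  · have hg1 : g ≠ 1 := by
      rintro rfl
      exact hg U.one_mem
    simp [hg, hs g hg, Ne.symm hg1]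

theorem coeff_form (U : Subgroup A) [DecidablePred (· ∈ U)] (a b : ℤ) (g : A) :
    (((a : ℤ) : MonoidAlgebra ℤ A) + ((b : ℤ) : MonoidAlgebra ℤ A) * nrm U).coeff g =
      (if g = 1 then a else 0) + b * (if g ∈ U then 1 else 0) := by
  have hcast : ∀ (a : ℤ) (s : MonoidAlgebra ℤ A), ((a : MonoidAlgebra ℤ A) * s) = a • s := by
    intro a s
    rw [zsmul_eq_mul]
  have hcast2 : ∀ a : ℤ, ((a : MonoidAlgebra ℤ A)) = single (1 : A) a := by
    intro a
    have h : ((a : ℤ) : MonoidAlgebra ℤ A) = algebraMap ℤ (MonoidAlgebra ℤ A) a :=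
      (eq_intCast (algebraMap ℤ (MonoidAlgebra ℤ A)) a).symm
    rw [h, coe_algebraMap]
    simp
  rw [hcast, hcast2]
  simp only [coeff_add, Finsupp.add_apply, coeff_single, coeff_smul, Finsupp.smul_apply, coeff_nrm,
    smul_eq_mul, Finsupp.single_apply, eq_comm]

/-- total coefficient sum -/
def tot (r : MonoidAlgebra ℤ A) : ℤ := ∑ g : A, r.coeff g

omit [DecidableEq A] in
theorem tot_mul (x y : MonoidAlgebra ℤ A) : tot (x * y) = tot x * tot y := by
  unfold tot
  simp only [coeff_mul_fin]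
  rw [Finset.sum_comm, Finset.sum_mul]
  apply Finset.sum_congr rfl
  intro h _
  rw [← Finset.mul_sum]
  congr 1
  exact Equiv.sum_comp (Equiv.mulLeft h⁻¹) (fun g => y.coeff g)

theorem tot_sumOf (W : Finset A) : tot (sumOf W) = W.card := by
  unfold tot
  simp only [coeff_sumOf]
  rw [Finset.sum_boole]
  simp

theorem tot_form (U : Subgroup A) [DecidablePred (· ∈ U)] (a b : ℤ) :
    tot (((a : ℤ) : MonoidAlgebra ℤ A) + ((b : ℤ) : MonoidAlgebra ℤ A) * nrm U) = a + b * Nat.card U := by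
  unfold tot
  simp only [coeff_form]
  rw [Finset.sum_add_distrib, Finset.sum_ite_eq' , ← Finset.mul_sum, Finset.sum_boole]
  simp only [Finset.mem_univ, if_true]
  congr 2
  rw [Nat.card_eq_fintype_card, Fintype.card_subtype]

/-- inversion on the group ring -/
def iota : MonoidAlgebra ℤ A →+* MonoidAlgebra ℤ A :=
  mapDomainRingHom ℤ (invMonoidHom : A →* A)

theorem iota_sumOf (W : Finset A) : iota (sumOf W) = sumOf (W.image (·⁻¹)) := by
  unfold sumOf iota
  rw [map_sum, Finset.sum_image (fun a _ b _ h => inv_injective h)]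
  apply Finset.sum_congr rfl
  intro w _
  simp

theorem iota_nrm (U : Subgroup A) [DecidablePred (· ∈ U)] : iota (nrm U) = nrm U := by
  unfold nrm
  rw [iota_sumOf]
  congr 1
  ext g
  simp only [Finset.mem_image, Finset.mem_filter, Finset.mem_univ, true_and]
  constructor
  · rintro ⟨h, hh, rfl⟩
    exact U.inv_mem hh
  · intro hg
    exact ⟨g⁻¹, U.inv_mem hg, inv_inv g⟩

/-- Frobenius: the coefficients of `σ^p` modulo `p`. -/
theorem frob {p : ℕ} [hp : Fact p.Prime] (W : Finset A) (t : A) (hW : ∀ w ∈ W, w ^ p = t) (g : A) :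
    ((((sumOf W) ^ p).coeff g : ℤ) : ZMod p) = if g = t then (W.card : ZMod p) else 0 := by
  have hinj : Function.Injective (algebraMap (ZMod p) (MonoidAlgebra (ZMod p) A)) := by
    intro a b h
    rw [coe_algebraMap] at h
    simp only [Function.comp] at h
    have h2 := congrArg (fun r => r.coeff 1) h
    simpa using h2
  haveI : CharP (MonoidAlgebra (ZMod p) A) p := charP_of_injective_algebraMap hinj p
  let φ := mapRingHom A (Int.castRingHom (ZMod p))
  have h1 : ((((sumOf W) ^ p).coeff g : ℤ) : ZMod p) = (φ ((sumOf W) ^ p)).coeff g := by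
    simp only [φ, coeff_mapRingHom]
    rfl
  rw [h1, map_pow]
  have h2 : φ (sumOf W) = ∑ w ∈ W, single w (1 : ZMod p) := by
    unfold sumOf
    rw [map_sum]
    apply Finset.sum_congr rfl
    intro w _
    simp [φ]
  rw [h2, sum_pow_char p]
  have h3 : ∀ w ∈ W, (single w (1 : ZMod p)) ^ p = single t (1 : ZMod p) := by
    intro w hw
    rw [single_pow, hW w hw, one_pow]
  rw [Finset.sum_congr rfl h3, Finset.sum_const, coeff_smul]
  simp only [Finsupp.smul_apply, coeff_single, Finsupp.single_apply]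
  by_cases hg : g = t
  · subst hg
    simp
  · simp [hg, Ne.symm hg]

end Sums

/-- **Lemma C.** A "circulant design" whose kernel is invariant under a family of permutations
doubly homogeneous on `U` is trivial. -/
theorem main {p : ℕ} (hp : p.Prime) (hp2 : p ≠ 2) (U : Subgroup A) (hU : Nat.card U = p) (x : A)
    (hxp : x ^ p ∈ U) (W : Finset A) (hWx : ∀ w ∈ W, x⁻¹ * w ∈ U) (hne : W.Nonempty)
    (hm : 2 * W.card ≤ p - 1)
    (hinv : ∀ y y', y ∈ U → y ≠ 1 → y' ∈ U → y' ≠ 1 → ∃ π : Equiv.Perm A, π 1 = 1 ∧ π y = y' ∧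
      ∀ v v', v⁻¹ * v' ∈ W ↔ (π v)⁻¹ * π v' ∈ W) : W.card = 1 := by
  classical
  haveI : Fact p.Prime := ⟨hp⟩
  have hp3 : 3 ≤ p := by
    have := hp.two_le
    omega
  let σ : MonoidAlgebra ℤ A := sumOf W
  let σs : MonoidAlgebra ℤ A := sumOf (W.image (·⁻¹))
  let Good : MonoidAlgebra ℤ A → Prop := fun r =>
    ∀ π : Equiv.Perm A, (∀ v v', v⁻¹ * v' ∈ W ↔ (π v)⁻¹ * π v' ∈ W) → KInv π r
  have hGmul : ∀ {r s}, Good r → Good s → Good (r * s) :=
    fun hr hs π hπ => (hr π hπ).mul (hs π hπ)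
  have hGpow : ∀ {r} (k : ℕ), Good r → Good (r ^ k) :=
    fun k hr π hπ => (hr π hπ).pow k
  have hGσ : Good σ := by
    intro π hπ v v'
    simp only [σ, coeff_sumOf]
    by_cases h : v⁻¹ * v' ∈ W
    · rw [if_pos h, if_pos ((hπ v v').1 h)]
    · rw [if_neg h, if_neg (fun h2 => h ((hπ v v').2 h2))]
  have hmemi : ∀ g, g ∈ W.image (·⁻¹) ↔ g⁻¹ ∈ W := by
    intro g
    simp only [Finset.mem_image]
    constructor
    · rintro ⟨w, hw, rfl⟩
      simpa using hw
    · intro h
      exact ⟨g⁻¹, h, inv_inv g⟩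
  have hGσs : Good σs := by
    intro π hπ v v'
    simp only [σs, coeff_sumOf, hmemi]
    have h1 : ((π v)⁻¹ * π v')⁻¹ = (π v')⁻¹ * π v := by group
    have h2 : (v⁻¹ * v')⁻¹ = v'⁻¹ * v := by group
    rw [h1, h2]
    by_cases h : v'⁻¹ * v ∈ W
    · rw [if_pos h, if_pos ((hπ v' v).1 h)]
    · rw [if_neg h, if_neg (fun h2 => h ((hπ v' v).2 h2))]
  have hconst : ∀ {r}, Good r → ∀ y y', y ∈ U → y ≠ 1 → y' ∈ U → y' ≠ 1 → r.coeff y = r.coeff y' := by
    intro r hr y y' hy hy1 hy' hy'1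
    obtain ⟨π, hπ1, hπy, hπ⟩ := hinv y y' hy hy1 hy' hy'1
    have := hr π hπ 1 y
    rw [hπ1, hπy] at this
    simp only [inv_one, one_mul] at this
    exact this.symm
  have hSσ : Supp U x σ := by
    intro g hg
    simp only [σ, coeff_sumOf]
    rw [if_neg]
    intro h
    exact hg (hWx g h)
  have hSσs : Supp U x⁻¹ σs := by
    intro g hg
    simp only [σs, coeff_sumOf, hmemi]
    rw [if_neg]
    intro h
    apply hg
    have h5 : (x⁻¹)⁻¹ * g = (x⁻¹ * g⁻¹)⁻¹ := by simp [mul_comm]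
    rw [h5]
    exact U.inv_mem (hWx _ h)
  -- a third element of `U`
  obtain ⟨y₀, hy₀, hy₀1, hy₀t⟩ : ∃ y₀, y₀ ∈ U ∧ y₀ ≠ 1 ∧ y₀ ≠ x ^ p := by
    by_contra hcon
    push Not at hcon
    have h1 : (Finset.univ.filter (· ∈ U) : Finset A) ⊆ {1, x ^ p} := by
      intro y hy
      simp only [Finset.mem_filter, Finset.mem_univ, true_and] at hy
      simp only [Finset.mem_insert, Finset.mem_singleton]
      by_cases hy1 : y = 1
      · exact Or.inl hy1
      · exact Or.inr (hcon y hy hy1)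
    have h2 := Finset.card_le_card h1
    have h3 : (Finset.univ.filter (· ∈ U) : Finset A).card = p := by
      rw [← hU, Nat.card_eq_fintype_card, Fintype.card_subtype]
    have h4 : ({1, x ^ p} : Finset A).card ≤ 2 := Finset.card_le_two
    omega
  -- the two elements
  have hr1S : ∀ g, g ∉ U → (σ ^ p).coeff g = 0 := by
    intro g hg
    apply (hSσ.pow p) g
    intro h
    apply hg
    have := U.mul_mem hxp h
    simpa using this
  have hr2S : ∀ g, g ∉ U → (σ * σs).coeff g = 0 := by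
    intro g hg
    apply (hSσ.mul hSσs) g
    simpa using hg
  have hr1G : Good (σ ^ p) := hGpow p hGσ
  have hr2G : Good (σ * σs) := hGmul hGσ hGσs
  have hf1 := form U hy₀ hy₀1 hr1S (fun y hy hy1 => hconst hr1G y y₀ hy hy1 hy₀ hy₀1)
  have hf2 := form U hy₀ hy₀1 hr2S (fun y hy hy1 => hconst hr2G y y₀ hy hy1 hy₀ hy₀1)
  set α : ℤ := (σ ^ p).coeff 1 - (σ ^ p).coeff y₀ with hα
  set E : ℤ := (σ ^ p).coeff y₀ with hE
  set ν : ℤ := (σ * σs).coeff 1 - (σ * σs).coeff y₀ with hν
  set lam : ℤ := (σ * σs).coeff y₀ with hlam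
  set N : MonoidAlgebra ℤ A := nrm U with hN
  have hN2 : N * N = ((p : ℤ) : MonoidAlgebra ℤ A) * N := by
    have := nrm_sq U
    rwa [hU] at this
  -- `σs ^ p`
  have hf3 : σs ^ p = ((α : ℤ) : MonoidAlgebra ℤ A) + ((E : ℤ) : MonoidAlgebra ℤ A) * N := by
    have h1 : iota σ = σs := iota_sumOf W
    have h2 : iota (σ ^ p) = σs ^ p := by rw [map_pow, h1]
    rw [← h2, hf1, map_add, map_mul, map_intCast, map_intCast]
    rw [iota_nrm]
  -- the power of `σ σs`
  have hpow : ∀ k : ℕ, ∃ c : ℤ, (((ν : ℤ) : MonoidAlgebra ℤ A) + ((lam : ℤ) : MonoidAlgebra ℤ A) * N) ^ k =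
      ((ν ^ k : ℤ) : MonoidAlgebra ℤ A) + ((c : ℤ) : MonoidAlgebra ℤ A) * N := by
    intro k
    induction k with
    | zero => exact ⟨0, by simp⟩
    | succ k ih =>
      obtain ⟨c, hc⟩ := ih
      refine ⟨ν ^ k * lam + c * ν + c * lam * p, ?_⟩
      rw [pow_succ, hc]
      push_cast
      linear_combination ((c : MonoidAlgebra ℤ A) * lam) * hN2
  have hα2 : α ^ 2 = ν ^ p := by
    obtain ⟨c, hc⟩ := hpow p
    have h1 : (σ * σs) ^ p = ((α ^ 2 : ℤ) : MonoidAlgebra ℤ A) +
        ((2 * α * E + E ^ 2 * p : ℤ) : MonoidAlgebra ℤ A) * N := by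
      rw [mul_pow, hf3]
      nth_rewrite 1 [hf1]
      push_cast
      linear_combination ((E : MonoidAlgebra ℤ A) ^ 2) * hN2
    have h2 : (σ * σs) ^ p = ((ν ^ p : ℤ) : MonoidAlgebra ℤ A) + ((c : ℤ) : MonoidAlgebra ℤ A) * N := by
      rw [← hc, ← hf2]
    rw [h1] at h2
    have h3 := congrArg (fun r => r.coeff 1 - r.coeff y₀) h2
    simp only [hN, coeff_form, if_true, hy₀, hy₀1, if_false, U.one_mem] at h3
    linarith
  -- ν + lam = m
  have hm0 : 1 ≤ W.card := Finset.card_pos.mpr hne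
  have h1 : ν + lam = W.card := by
    have h : (σ * σs).coeff 1 = W.card := by
      rw [coeff_mul_fin]
      simp only [σ, σs, coeff_sumOf, hmemi, mul_one, inv_inv]
      have : ∀ h : A, (if h ∈ W then (1 : ℤ) else 0) * (if h ∈ W then 1 else 0) =
          if h ∈ W then 1 else 0 := by
        intro h
        by_cases hh : h ∈ W <;> simp [hh]
      rw [Finset.sum_congr rfl (fun h _ => this h), Finset.sum_boole]
      simp
    rw [hν, hlam, ← h]
    ring
  have h2 : ν + lam * p = (W.card : ℤ) ^ 2 := by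
    have h := congrArg tot hf2
    rw [tot_mul, tot_sumOf, tot_sumOf, tot_form, hU] at h
    rw [Finset.card_image_of_injective _ inv_injective] at h
    rw [← h]
    ring
  -- modulo p
  have hmod : ((α : ℤ) : ZMod p) = ((W.card : ℤ) : ZMod p) := by
    have hfr : ∀ g, (((σ ^ p).coeff g : ℤ) : ZMod p) = if g = x ^ p then (W.card : ZMod p) else 0 := by
      apply frob W (x ^ p)
      intro w hw
      have h3 : (x⁻¹ * w) ^ p = 1 := by
        have h4 := pow_card_eq_one' (G := U) (x := ⟨x⁻¹ * w, hWx w hw⟩)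
        rw [hU] at h4
        exact congrArg Subtype.val h4
      rw [mul_pow, inv_pow, inv_mul_eq_one] at h3
      exact h3.symm
    have hE0 : ((E : ℤ) : ZMod p) = 0 := by
      rw [hE, hfr, if_neg hy₀t]
    by_cases hx1 : x ^ p = 1
    · rw [hα]
      push_cast
      rw [hfr 1, if_pos hx1.symm, hfr y₀, if_neg hy₀t, sub_zero]
    · exfalso
      have h3 : (σ ^ p).coeff (x ^ p) = E := hconst hr1G _ y₀ hxp hx1 hy₀ hy₀1
      have h4 := hfr (x ^ p)
      rw [if_pos rfl, h3, hE0] at h4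
      have h5 : p ∣ W.card := (ZMod.natCast_eq_zero_iff _ _).1 h4.symm
      have := Nat.le_of_dvd (by omega) h5
      omega
  have hres := arith hp hp2 hα2 h1 h2 (by exact_mod_cast hm0) (by
    have : (2 : ℤ) * W.card ≤ ((p - 1 : ℕ) : ℤ) := by exact_mod_cast hm
    have h3 : ((p - 1 : ℕ) : ℤ) = (p : ℤ) - 1 := by
      have := hp.one_lt.le
      omega
    linarith) hmod
  exact_mod_cast hres

end

end Cfsg.Agent.Lib.DPrimC
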