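import Mathlib

set_option autoImplicit false

namespace Cfsg.Agent.Lib.DPrimI1

variable {G : Type*} [Group G]

/-- Hypotheses on the action of `H` on `P ⊇ U`. -/
structure Act (P U H : Subgroup G) (p : ℕ) : Prop where
  hp : p.Prime
  hodd : p ≠ 2
  hUP : U ≤ P
  comm : ∀ x ∈ P, ∀ y ∈ P, x * y = y * x
  cardP : Nat.card P = p ^ 2
  cardU : Nat.card U = p
  pP : ∀ h ∈ H, ∀ v ∈ P, h * v * h⁻¹ ∈ P
  pU : ∀ h ∈ H, ∀ u ∈ U, h * u * h⁻¹ ∈ U
  faith : ∀ h ∈ H, (∀ v ∈ P, h * v * h⁻¹ = v) → h = 1
  cop : ¬ p ∣ Nat.card H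

variable {P U H : Subgroup G} {p : ℕ}

theorem comm_of {h v w : G} {n : ℕ} (hw : h * w * h⁻¹ = w) (hv : h * v * h⁻¹ = v * w)
    (hn : h ^ n = 1) (hpw : w ^ p = 1) (hc : Nat.Coprime n p) : w = 1 := by
  have key : ∀ k : ℕ, h ^ k * v * (h ^ k)⁻¹ = v * w ^ k := by
    intro k
    induction k with
    | zero => simp
    | succ k ih =>
      have h1 : h ^ (k + 1) * v * (h ^ (k + 1))⁻¹ = h * (h ^ k * v * (h ^ k)⁻¹) * h⁻¹ := by
        rw [pow_succ']
        group
      have hwk : h * w ^ k * h⁻¹ = w ^ k := by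
        rw [← conj_pow, hw]
      rw [h1, ih]
      have h3 : h * (v * w ^ k) * h⁻¹ = (h * v * h⁻¹) * (h * w ^ k * h⁻¹) := by group
      rw [h3, hv, hwk, pow_succ']
      group
  have h1 := key n
  rw [hn] at h1
  simp only [one_mul, inv_one, mul_one] at h1
  have h2 : w ^ n = 1 := by
    have : v * w ^ n = v * 1 := by rw [← h1, mul_one]
    exact mul_left_cancel this
  have h3 := pow_gcd_eq_one.2 ⟨h2, hpw⟩
  rw [hc, pow_one] at h3
  exact h3

theorem Act.normal (A : Act P U H p) : (U.subgroupOf P).Normal := by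
  constructor
  intro n hn g
  have h1 : g * n * g⁻¹ = n := by
    apply Subtype.ext
    have := A.comm g g.2 n n.2
    simp only [Subgroup.coe_mul, Subgroup.coe_inv]
    rw [this]
    group
  rw [h1]
  exact hn

noncomputable section

/-- Conjugation on `U`. -/
def conjU (A : Act P U H p) (h : H) : MulAut U where
  toFun u := ⟨h * u * (h : G)⁻¹, A.pU h h.2 u u.2⟩
  invFun u := ⟨(h : G)⁻¹ * u * h, by simpa using A.pU (h : G)⁻¹ (H.inv_mem h.2) u u.2⟩
  left_inv u := by
    apply Subtype.ext
    simp [mul_assoc]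
  right_inv u := by
    apply Subtype.ext
    simp [mul_assoc]
  map_mul' x y := by
    apply Subtype.ext
    simp [mul_assoc]

/-- Conjugation on `P`. -/
def conjP (A : Act P U H p) (h : H) : MulAut P where
  toFun u := ⟨h * u * (h : G)⁻¹, A.pP h h.2 u u.2⟩
  invFun u := ⟨(h : G)⁻¹ * u * h, by simpa using A.pP (h : G)⁻¹ (H.inv_mem h.2) u u.2⟩
  left_inv u := by
    apply Subtype.ext
    simp [mul_assoc]
  right_inv u := by
    apply Subtype.ext
    simp [mul_assoc]
  map_mul' x y := by
    apply Subtype.ext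
    simp [mul_assoc]

@[simp] theorem conjU_coe (A : Act P U H p) (h : H) (u : U) :
    ((conjU A h u : U) : G) = h * u * (h : G)⁻¹ := rfl

@[simp] theorem conjP_coe (A : Act P U H p) (h : H) (u : P) :
    ((conjP A h u : P) : G) = h * u * (h : G)⁻¹ := rfl

/-- The action on `U`. -/
def psi1 (A : Act P U H p) : H →* MulAut U :=
  MonoidHom.mk' (conjU A) (by
    intro x y
    ext u
    simp [mul_assoc])

theorem psi1_coe (A : Act P U H p) (h : H) (u : U) :
    ((psi1 A h u : U) : G) = h * u * (h : G)⁻¹ := rfl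

theorem map_conjP (A : Act P U H p) (h : H) :
    (U.subgroupOf P).map ((conjP A h : P ≃* P) : P →* P) = U.subgroupOf P := by
  ext v
  simp only [Subgroup.mem_map, Subgroup.mem_subgroupOf]
  constructor
  · rintro ⟨w, hw, rfl⟩
    exact A.pU h h.2 w hw
  · intro hv
    refine ⟨(conjP A h).symm v, ?_, by simp⟩
    exact A.pU (h : G)⁻¹ (H.inv_mem h.2) v hv |> fun x => by simpa [conjP] using x

variable [hn : (U.subgroupOf P).Normal]

/-- The action on `P/U`. -/
def psi2 (A : Act P U H p) : H →* MulAut (P ⧸ U.subgroupOf P) :=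
  MonoidHom.mk' (fun h => QuotientGroup.congr (U.subgroupOf P) (U.subgroupOf P) (conjP A h)
    (map_conjP A h)) (by
    intro x y
    ext q
    induction q using QuotientGroup.induction_on with
    | H z =>
      have : conjP A (x * y) z = conjP A x (conjP A y z) := by
        apply Subtype.ext
        simp [mul_assoc]
      show ((conjP A (x * y) z : P) : P ⧸ U.subgroupOf P) =
        ((conjP A x (conjP A y z) : P) : P ⧸ U.subgroupOf P)
      rw [this])

theorem psi2_mk (A : Act P U H p) (h : H) (v : P) :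
    psi2 A h (v : P ⧸ U.subgroupOf P) = ((conjP A h v : P) : P ⧸ U.subgroupOf P) := rfl

theorem card_quot (A : Act P U H p) : Nat.card (P ⧸ U.subgroupOf P) = p := by
  have h1 := (U.subgroupOf P).card_mul_index
  have h2 : Nat.card (U.subgroupOf P) = p := by
    rw [← A.cardU]
    exact Nat.card_congr (Subgroup.subgroupOfEquivOfLe A.hUP).toEquiv
  rw [h2, A.cardP] at h1
  have h3 : p * (U.subgroupOf P).index = p * p := by rw [h1]; ring
  exact Nat.eq_of_mul_eq_mul_left A.hp.pos h3

theorem psi_inj (A : Act P U H p) {h : H} (h1 : psi1 A h = 1) (h2 : psi2 A h = 1) : h = 1 := by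
  haveI : Fact p.Prime := ⟨A.hp⟩
  apply Subtype.ext
  apply A.faith h h.2
  intro v hv
  let v' : P := ⟨v, hv⟩
  have h3 : psi2 A h (v' : P ⧸ U.subgroupOf P) = (v' : P ⧸ U.subgroupOf P) := by
    rw [h2]; rfl
  rw [psi2_mk, eq_comm, QuotientGroup.eq] at h3
  let w : U := ⟨((v'⁻¹ * conjP A h v' : P) : G), h3⟩
  have hw : (h : G) * (w : G) * (h : G)⁻¹ = w := by
    have := congrArg (fun α : MulAut U => ((α w : U) : G)) h1
    simpa [psi1_coe] using this
  have hwv : (h : G) * v * (h : G)⁻¹ = v * (w : G) := by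
    show (h : G) * v * (h : G)⁻¹ = v * (v⁻¹ * ((h : G) * v * (h : G)⁻¹))
    group
  have hord : (h : G) ^ (orderOf h) = 1 := by
    have := pow_orderOf_eq_one h
    exact congrArg Subtype.val this
  have hwp : (w : G) ^ p = 1 := by
    have h4 := pow_card_eq_one' (x := w)
    rw [A.cardU] at h4
    exact congrArg Subtype.val h4
  have hcop : Nat.Coprime (orderOf h) p := by
    apply Nat.Coprime.symm
    rw [Nat.Prime.coprime_iff_not_dvd A.hp]
    intro hd
    exact A.cop (hd.trans (orderOf_dvd_natCard h))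
  have hw1 := comm_of hw hwv hord hwp hcop
  rw [hwv, hw1, mul_one]

theorem mulAut_comm (C : Type*) [Group C] [IsCyclic C] (α β : MulAut C) : α * β = β * α := by
  apply (IsCyclic.mulAutMulEquiv C).injective
  rw [map_mul, map_mul, mul_comm]

/-- (i) `H` is abelian. -/
theorem H_comm (A : Act P U H p) {h k : G} (hh : h ∈ H) (hk : k ∈ H) : h * k = k * h := by
  haveI : Fact p.Prime := ⟨A.hp⟩
  haveI : IsCyclic U := isCyclic_of_prime_card A.cardU
  haveI : IsCyclic (P ⧸ U.subgroupOf P) := isCyclic_of_prime_card (card_quot A)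
  let x : H := ⟨h, hh⟩
  let y : H := ⟨k, hk⟩
  have h1 : psi1 A (x * y * (y * x)⁻¹) = 1 := by
    rw [map_mul, map_inv, map_mul, map_mul, mulAut_comm U (psi1 A x) (psi1 A y)]
    group
  have h2 : psi2 A (x * y * (y * x)⁻¹) = 1 := by
    rw [map_mul, map_inv, map_mul, map_mul, mulAut_comm _ (psi2 A x) (psi2 A y)]
    group
  have h3 := psi_inj A h1 h2
  have h4 : x * y = y * x := mul_inv_eq_one.1 h3
  exact congrArg Subtype.val h4

/-- The combined map. -/
def psi (A : Act P U H p) : H →* MulAut U × MulAut (P ⧸ U.subgroupOf P) :=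
  MonoidHom.prod (psi1 A) (psi2 A)

theorem psi_injective (A : Act P U H p) : Function.Injective (psi A) := by
  rw [injective_iff_map_eq_one]
  intro h hh
  have h1 : psi1 A h = 1 := congrArg Prod.fst hh
  have h2 : psi2 A h = 1 := congrArg Prod.snd hh
  exact psi_inj A h1 h2

theorem card_target (A : Act P U H p) :
    Nat.card (MulAut U × MulAut (P ⧸ U.subgroupOf P)) = (p - 1) ^ 2 := by
  haveI : Fact p.Prime := ⟨A.hp⟩
  haveI : IsCyclic U := isCyclic_of_prime_card A.cardU
  haveI : IsCyclic (P ⧸ U.subgroupOf P) := isCyclic_of_prime_card (card_quot A)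
  haveI : Finite U := by
    apply Nat.finite_of_card_ne_zero
    rw [A.cardU]
    exact A.hp.ne_zero
  haveI : Finite (P ⧸ U.subgroupOf P) := by
    apply Nat.finite_of_card_ne_zero
    rw [card_quot A]
    exact A.hp.ne_zero
  rw [Nat.card_prod, IsCyclic.card_mulAut, IsCyclic.card_mulAut, A.cardU, card_quot A,
    Nat.totient_prime A.hp]
  ring

/-- (ii) the order of `H`. -/
theorem card_H_dvd (A : Act P U H p) : Nat.card H ∣ (p - 1) ^ 2 := by
  rw [← card_target A]
  exact Subgroup.card_dvd_of_injective _ (psi_injective A)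

/-- Inversion on a commutative group. -/
def invAut (C : Type*) [Group C] [IsCyclic C] : MulAut C where
  toFun x := x⁻¹
  invFun x := x⁻¹
  left_inv x := inv_inv x
  right_inv x := inv_inv x
  map_mul' x y := by
    haveI := IsCyclic.commutative (α := C)
    rw [mul_inv_rev, mul_comm']

@[simp] theorem invAut_apply (C : Type*) [Group C] [IsCyclic C] (x : C) : invAut C x = x⁻¹ := rfl

theorem invAut_ne_one (C : Type*) [Group C] [IsCyclic C] (hp : p.Prime) (hodd : p ≠ 2)
    (hC : Nat.card C = p) : invAut C ≠ 1 := by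
  haveI : Fact p.Prime := ⟨hp⟩
  haveI : Finite C := by
    apply Nat.finite_of_card_ne_zero
    rw [hC]
    exact hp.ne_zero
  intro h
  have h1 : ∀ x : C, x⁻¹ = x := by
    intro x
    have := congrArg (fun α : MulAut C => α x) h
    simpa using this
  have h2 : ∀ x : C, x ^ 2 = 1 := by
    intro x
    rw [pow_two]
    nth_rewrite 1 [← h1 x]
    simp
  have h3 : p ∣ Nat.card C := by rw [hC]
  obtain ⟨x, hx⟩ := exists_prime_orderOf_dvd_card' p h3
  have h4 := orderOf_dvd_of_pow_eq_one (h2 x)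
  rw [hx] at h4
  have := (Nat.prime_dvd_prime_iff_eq hp Nat.prime_two).1 h4
  exact hodd this

/-- An involutory automorphism of a group of odd prime order. -/
theorem aut_involution (C : Type*) [Group C] [IsCyclic C] (hp : p.Prime) (hC : Nat.card C = p)
    (α : MulAut C) (hα : α * α = 1) : α = 1 ∨ α = invAut C := by
  haveI : Fact p.Prime := ⟨hp⟩
  haveI : Finite C := by
    apply Nat.finite_of_card_ne_zero
    rw [hC]
    exact hp.ne_zero
  haveI hcomm := IsCyclic.commutative (α := C)
  have hαα : ∀ x, α (α x) = x := by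
    intro x
    have := congrArg (fun β : MulAut C => β x) hα
    simpa using this
  by_cases hex : ∃ y : C, y ≠ 1 ∧ α y = y
  · left
    obtain ⟨y, hy, hαy⟩ := hex
    have hgen : ∀ x : C, x ∈ Subgroup.zpowers y := by
      intro x
      have h1 : Subgroup.zpowers y = ⊤ := by
        rw [Subgroup.eq_top_iff']
        have := zpowers_eq_top_of_prime_card hC hy
        intro x
        rw [this]
        exact Subgroup.mem_top _
      rw [h1]
      exact Subgroup.mem_top _
    ext x
    obtain ⟨k, rfl⟩ := hgen x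
    simp [hαy]
  · right
    push Not at hex
    ext x
    by_contra hne
    have hy : x * α x ≠ 1 := by
      intro h
      apply hne
      simp only [invAut_apply]
      exact eq_inv_of_mul_eq_one_right h
    apply hex _ hy
    rw [map_mul, hαα, mul_comm']

theorem eq_one_of_sq_of_pow {C : Type*} [Group C] {x : C} (hp : p.Prime) (hodd : p ≠ 2)
    (h2 : x ^ 2 = 1) (h3 : x ^ p = 1) : x = 1 := by
  have hc : Nat.Coprime 2 p := (Nat.coprime_primes Nat.prime_two hp).2 (Ne.symm hodd)
  have h4 := pow_gcd_eq_one.2 ⟨h2, h3⟩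
  rw [hc, pow_one] at h4
  exact h4

/-- (iii) Surjectivity produces an involution acting trivially on `U` and by inversion on `P/U`. -/
theorem exists_z3 (A : Act P U H p) (hcard : Nat.card H = (p - 1) ^ 2) :
    ∃ z ∈ H, z ≠ 1 ∧ z ^ 2 = 1 ∧ (∀ u ∈ U, z * u * z⁻¹ = u) ∧ ∀ v ∈ P, z * v * z⁻¹ = v → v ∈ U := by
  haveI : Fact p.Prime := ⟨A.hp⟩
  haveI : IsCyclic U := isCyclic_of_prime_card A.cardU
  haveI : IsCyclic (P ⧸ U.subgroupOf P) := isCyclic_of_prime_card (card_quot A)
  haveI : Finite U := by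
    apply Nat.finite_of_card_ne_zero
    rw [A.cardU]
    exact A.hp.ne_zero
  haveI : Finite (P ⧸ U.subgroupOf P) := by
    apply Nat.finite_of_card_ne_zero
    rw [card_quot A]
    exact A.hp.ne_zero
  haveI : Finite (MulAut U × MulAut (P ⧸ U.subgroupOf P)) := inferInstance
  have hbij : Function.Bijective (psi A) :=
    (Nat.bijective_iff_injective_and_card _).2 ⟨psi_injective A, by rw [hcard, card_target A]⟩
  obtain ⟨z, hz⟩ := hbij.2 (1, invAut _)
  have h1 : psi1 A z = 1 := congrArg Prod.fst hz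
  have h2 : psi2 A z = invAut _ := congrArg Prod.snd hz
  refine ⟨z, z.2, ?_, ?_, ?_, ?_⟩
  · intro h
    have hz1 : z = 1 := Subtype.ext h
    rw [hz1, map_one] at h2
    exact invAut_ne_one _ A.hp A.hodd (card_quot A) h2.symm
  · have hz2 : z ^ 2 = 1 := by
      apply psi_inj A
      · rw [map_pow, h1, one_pow]
      · rw [map_pow, h2]
        ext q
        simp [pow_two]
    exact congrArg Subtype.val hz2
  · intro u hu
    have := congrArg (fun α : MulAut U => ((α ⟨u, hu⟩ : U) : G)) h1
    simpa [psi1_coe] using this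
  · intro v hv hzv
    let v' : P := ⟨v, hv⟩
    have h3 : conjP A z v' = v' := Subtype.ext hzv
    have h4 := psi2_mk A z v'
    rw [h2, h3, invAut_apply] at h4
    have h5 : ((v' : P ⧸ U.subgroupOf P)) ^ 2 = 1 := by
      rw [pow_two]
      nth_rewrite 1 [← h4]
      simp
    have h6 : ((v' : P ⧸ U.subgroupOf P)) ^ p = 1 := by
      have := pow_card_eq_one' (x := (v' : P ⧸ U.subgroupOf P))
      rwa [card_quot A] at this
    have h7 := eq_one_of_sq_of_pow A.hp A.hodd h5 h6
    exact (QuotientGroup.eq_one_iff v').1 h7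

/-- Inverting on `U` and `P/U` means inverting on `P`. -/
theorem invert_of [hcU : IsCyclic U] [hcQ : IsCyclic (P ⧸ U.subgroupOf P)] (A : Act P U H p)
    {w : H} (hw : (w : G) ^ 2 = 1) (h1 : psi1 A w = invAut U) (h2 : psi2 A w = invAut _) :
    ∀ v ∈ P, (w : G) * v * (w : G)⁻¹ = v⁻¹ := by
  haveI : Fact p.Prime := ⟨A.hp⟩
  intro v hv
  let v' : P := ⟨v, hv⟩
  have h3 := psi2_mk A w v'
  rw [h2, invAut_apply, ← QuotientGroup.mk_inv, QuotientGroup.eq, inv_inv] at h3
  have hwinv : (w : G)⁻¹ = w := by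
    have h5 : (w : G) * w = 1 := by rw [← pow_two]; exact hw
    exact inv_eq_of_mul_eq_one_right h5
  let t : U := ⟨v * ((w : G) * v * (w : G)⁻¹), h3⟩
  have hconj : (w : G) * v * (w : G)⁻¹ ∈ P := A.pP w w.2 v hv
  have ht1 : (w : G) * (t : G) * (w : G)⁻¹ = t := by
    show (w : G) * (v * ((w : G) * v * (w : G)⁻¹)) * (w : G)⁻¹ = v * ((w : G) * v * (w : G)⁻¹)
    have h5 : (w : G) * w = 1 := by rw [← pow_two]; exact hw
    have h6 : (w : G) * ((w : G) * v * (w : G)⁻¹) * (w : G)⁻¹ = v := by
      rw [hwinv]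
      calc (w : G) * ((w : G) * v * w) * w = ((w : G) * w) * v * ((w : G) * w) := by group
        _ = v := by rw [h5, one_mul, mul_one]
    have h7 : (w : G) * (v * ((w : G) * v * (w : G)⁻¹)) * (w : G)⁻¹ =
        ((w : G) * v * (w : G)⁻¹) * ((w : G) * ((w : G) * v * (w : G)⁻¹) * (w : G)⁻¹) := by group
    rw [h7, h6]
    exact (A.comm v hv _ hconj).symm
  have ht2 : (w : G) * (t : G) * (w : G)⁻¹ = (t : G)⁻¹ := by
    have h5 := congrArg (fun α : MulAut U => ((α t : U) : G)) h1
    simpa [psi1_coe] using h5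
  have ht3 : (t : G) ^ 2 = 1 := by
    rw [pow_two]
    nth_rewrite 1 [← ht1]
    rw [ht2, inv_mul_cancel]
  have ht4 : (t : G) ^ p = 1 := by
    have h4 := pow_card_eq_one' (x := t)
    rw [A.cardU] at h4
    exact congrArg Subtype.val h4
  have ht5 := eq_one_of_sq_of_pow A.hp A.hodd ht3 ht4
  exact eq_inv_of_mul_eq_one_right ht5

/-- (iv) Two distinct involutions: one of them, or their product, inverts `P`. -/
theorem invol (A : Act P U H p) {z z' : G} (hz : z ∈ H) (hz' : z' ∈ H) (h1 : z ≠ 1) (h1' : z' ≠ 1)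
    (h2 : z ^ 2 = 1) (h2' : z' ^ 2 = 1) (hne : z ≠ z') :
    (∀ v ∈ P, z * v * z⁻¹ = v⁻¹) ∨ (∀ v ∈ P, z' * v * z'⁻¹ = v⁻¹) ∨
      (z * z' ≠ 1 ∧ (z * z') ^ 2 = 1 ∧ ∀ v ∈ P, (z * z') * v * (z * z')⁻¹ = v⁻¹) := by
  haveI : Fact p.Prime := ⟨A.hp⟩
  haveI hcU : IsCyclic U := isCyclic_of_prime_card A.cardU
  haveI hcQ : IsCyclic (P ⧸ U.subgroupOf P) := isCyclic_of_prime_card (card_quot A)
  let x : H := ⟨z, hz⟩
  let y : H := ⟨z', hz'⟩
  have hx1 : x ≠ 1 := fun h => h1 (congrArg Subtype.val h)
  have hy1 : y ≠ 1 := fun h => h1' (congrArg Subtype.val h)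
  have hx2 : x * x = 1 := by
    apply Subtype.ext
    show z * z = 1
    rw [← pow_two, h2]
  have hy2 : y * y = 1 := by
    apply Subtype.ext
    show z' * z' = 1
    rw [← pow_two, h2']
  have hxy : x ≠ y := fun h => hne (congrArg Subtype.val h)
  have hcomm : z * z' = z' * z := H_comm A hz hz'
  have hprod2 : (z * z') ^ 2 = 1 := by
    rw [pow_two]
    calc z * z' * (z * z') = z * (z' * z) * z' := by group
      _ = z * (z * z') * z' := by rw [hcomm]
      _ = z ^ 2 * z' ^ 2 := by rw [pow_two, pow_two]; group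
      _ = 1 := by rw [h2, h2', one_mul]
  have hprod1 : z * z' ≠ 1 := by
    intro h
    apply hne
    have h3 : z⁻¹ = z := inv_eq_of_mul_eq_one_right (by rw [← pow_two, h2])
    rw [← h3]
    exact inv_eq_of_mul_eq_one_right h
  have hα := aut_involution U A.hp A.cardU (psi1 A x) (by rw [← map_mul, hx2, map_one])
  have hβ := aut_involution _ A.hp (card_quot A) (psi2 A x) (by rw [← map_mul, hx2, map_one])
  have hα' := aut_involution U A.hp A.cardU (psi1 A y) (by rw [← map_mul, hy2, map_one])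
  have hβ' := aut_involution _ A.hp (card_quot A) (psi2 A y) (by rw [← map_mul, hy2, map_one])
  rcases hα with hα | hα <;> rcases hβ with hβ | hβ
  · exact absurd (psi_inj A hα hβ) hx1
  · rcases hα' with hα' | hα' <;> rcases hβ' with hβ' | hβ'
    · exact absurd (psi_inj A hα' hβ') hy1
    · exfalso
      apply hxy
      apply psi_injective A
      exact Prod.ext (hα.trans hα'.symm) (hβ.trans hβ'.symm)
    · right; right
      refine ⟨hprod1, hprod2, ?_⟩
      have := invert_of A (w := x * y) hprod2 (by rw [map_mul, hα, hα', one_mul])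
        (by rw [map_mul, hβ, hβ', mul_one])
      exact this
    · right; left
      exact invert_of A (w := y) h2' hα' hβ'
  · rcases hα' with hα' | hα' <;> rcases hβ' with hβ' | hβ'
    · exact absurd (psi_inj A hα' hβ') hy1
    · right; right
      refine ⟨hprod1, hprod2, ?_⟩
      have := invert_of A (w := x * y) hprod2 (by rw [map_mul, hα, hα', mul_one])
        (by rw [map_mul, hβ, hβ', one_mul])
      exact this
    · exfalso
      apply hxy
      apply psi_injective A
      exact Prod.ext (hα.trans hα'.symm) (hβ.trans hβ'.symm)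
    · right; left
      exact invert_of A (w := y) h2' hα' hβ'
  · left
    exact invert_of A (w := x) h2 hα hβ

end

end Cfsg.Agent.Lib.DPrimI1
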