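import Mathlib
import Cfsg.Agent.Lib.DPrimB
import Cfsg.Agent.Lib.InvolutionIndexTwo

set_option autoImplicit false

namespace Cfsg.Agent.Lib.DPrimK

open MulAction Cfsg.Agent.Lib.DPrimA Cfsg.Agent.Lib.DPrimB

variable {G Ω : Type*} [Group G] [MulAction G Ω]

/-- `G_a`-invariant equivalence relation on `Ω ∖ {a}`. -/
structure Eqv (G : Type*) {Ω : Type*} [Group G] [MulAction G Ω] (a : Ω) (r : Ω → Ω → Prop) :
    Prop where
  ne : ∀ {c d}, r c d → c ≠ a ∧ d ≠ a
  refl : ∀ {c}, c ≠ a → r c c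
  symm : ∀ {c d}, r c d → r d c
  trans : ∀ {c d e}, r c d → r d e → r c e
  inv : ∀ (g : G), g • a = a → ∀ {c d}, r c d → r (g • c) (g • d)

theorem smul_ne_of_fix {g : G} {a c : Ω} (hg : g • a = a) (hc : c ≠ a) : g • c ≠ a := by
  intro h
  apply hc
  have h2 : g • c = g • a := by rw [h, hg]
  exact MulAction.injective g h2

section PD

variable {p : ℕ} {a b : Ω} {P : Subgroup G}

/-- The subgroup of `P` attached to a relation. -/
def classSub {r : Ω → Ω → Prop} (hP : PD G p a b P) (E : Eqv G a r) (hb : b ≠ a) : Subgroup G where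
  carrier := {v | v ∈ P ∧ r b (v • b)}
  mul_mem' := by
    rintro x y ⟨hx, hx2⟩ ⟨hy, hy2⟩
    refine ⟨P.mul_mem hx hy, ?_⟩
    rw [mul_smul]
    exact E.trans hx2 (E.inv x (hP.le hx) hy2)
  one_mem' := by
    refine ⟨P.one_mem, ?_⟩
    rw [one_smul]
    exact E.refl hb
  inv_mem' := by
    rintro x ⟨hx, hx2⟩
    refine ⟨P.inv_mem hx, ?_⟩
    have hinv : x⁻¹ • a = a := hP.le (P.inv_mem hx)
    have := E.inv x⁻¹ hinv hx2
    rw [inv_smul_smul] at this
    exact E.symm this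

theorem mem_classSub {r : Ω → Ω → Prop} (hP : PD G p a b P) (E : Eqv G a r) (hb : b ≠ a) {v : G} :
    v ∈ classSub hP E hb ↔ v ∈ P ∧ r b (v • b) := Iff.rfl

/-- Regular action. -/
theorem P_smul_inj (hP : PD G p a b P) {c : Ω} (hc : c ≠ a) {v w : G} (hv : v ∈ P) (hw : w ∈ P)
    (h : v • c = w • c) : v = w := by
  have h1 : (w⁻¹ * v) • c = c := by rw [mul_smul, h, inv_smul_smul]
  have h2 := hP.free _ (P.mul_mem (P.inv_mem hw) hv) c hc h1
  have := mul_eq_one_iff_eq_inv.1 h2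
  exact (inv_injective this).symm

theorem card_class {r : Ω → Ω → Prop} [Finite G] (hP : PD G p a b P) (E : Eqv G a r) (hb : b ≠ a) :
    Set.ncard {d | r b d} = Nat.card (classSub hP E hb) := by
  classical
  have hset : {d | r b d} = (fun v : classSub hP E hb => (v : G) • b) '' Set.univ := by
    ext d
    simp only [Set.mem_setOf_eq, Set.image_univ, Set.mem_range, Subtype.exists]
    constructor
    · intro h
      obtain ⟨v, hv, rfl⟩ := hP.trans d (E.ne h).2
      exact ⟨v, ⟨hv, h⟩, rfl⟩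
    · rintro ⟨v, ⟨_, hv⟩, rfl⟩
      exact hv
  rw [hset, Set.ncard_image_of_injective, Set.ncard_univ]
  intro x y h
  apply Subtype.ext
  exact P_smul_inj hP hb x.2.1 y.2.1 h

theorem card_classSub_dvd {r : Ω → Ω → Prop} [Finite G] (hP : PD G p a b P) (E : Eqv G a r)
    (hb : b ≠ a) : Nat.card (classSub hP E hb) ∣ p ^ 2 := by
  rw [← hP.card]
  exact Subgroup.card_dvd_of_le (fun v hv => hv.1)

theorem class_size {r : Ω → Ω → Prop} [Finite G] (hp : p.Prime) (hP : PD G p a b P) (E : Eqv G a r)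
    (hb : b ≠ a) :
    Set.ncard {d | r b d} = 1 ∨ Set.ncard {d | r b d} = p ∨ Set.ncard {d | r b d} = p ^ 2 := by
  rw [card_class hP E hb]
  obtain ⟨i, hi, h⟩ := (Nat.dvd_prime_pow hp).1 (card_classSub_dvd hP E hb)
  interval_cases i
  · left; simpa using h
  · right; left; simpa using h
  · right; right; exact h

theorem class_uniform {r : Ω → Ω → Prop} (hP : PD G p a b P) (E : Eqv G a r) {c : Ω} (hc : c ≠ a) :
    Set.ncard {d | r c d} = Set.ncard {d | r b d} := by
  obtain ⟨v, hv, rfl⟩ := hP.trans c hc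
  have hset : {d | r (v • b) d} = (fun x => v • x) '' {d | r b d} := by
    ext d
    simp only [Set.mem_setOf_eq, Set.mem_image]
    constructor
    · intro h
      refine ⟨v⁻¹ • d, ?_, smul_inv_smul _ _⟩
      have := E.inv v⁻¹ (hP.le (P.inv_mem hv)) h
      rwa [inv_smul_smul] at this
    · rintro ⟨x, hx, rfl⟩
      exact E.inv v (hP.le hv) hx
  rw [hset, Set.ncard_image_of_injective _ (MulAction.injective v)]

theorem Eqv.base {r : Ω → Ω → Prop} (hP : PD G p a b P) (E : Eqv G a r)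
    (h : Set.ncard {d | r b d} = p) : Base G p a r :=
  ⟨E.ne, E.refl, E.symm, E.trans, E.inv, fun hc => (class_uniform hP E hc).trans h⟩

end PD

/-- `K ≤ G_a` normalised by `G_a`. -/
structure Nrm (a : Ω) (K : Subgroup G) : Prop where
  le : ∀ k ∈ K, k • a = a
  conj : ∀ g : G, g • a = a → ∀ k ∈ K, g * k * g⁻¹ ∈ K

theorem orbEqv {a : Ω} {K : Subgroup G} (hK : Nrm a K) :
    Eqv G a (fun c d => c ≠ a ∧ d ≠ a ∧ ∃ k ∈ K, k • c = d) := by
  refine ⟨fun h => ⟨h.1, h.2.1⟩, fun hc => ⟨hc, hc, 1, K.one_mem, one_smul _ _⟩, ?_, ?_, ?_⟩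
  · rintro c d ⟨hc, hd, k, hk, rfl⟩
    exact ⟨hd, hc, k⁻¹, K.inv_mem hk, inv_smul_smul _ _⟩
  · rintro c d e ⟨hc, hd, k, hk, rfl⟩ ⟨_, he, k', hk', rfl⟩
    exact ⟨hc, he, k' * k, K.mul_mem hk' hk, mul_smul _ _ _⟩
  · rintro g hg c d ⟨hc, hd, k, hk, rfl⟩
    refine ⟨smul_ne_of_fix hg hc, smul_ne_of_fix hg hd, g * k * g⁻¹, hK.conj g hg k hk, ?_⟩
    simp only [mul_smul, inv_smul_smul]

/-- conjugation of stabilizers in a normalised subgroup. -/
theorem stab_conj {a : Ω} {K : Subgroup G} (hK : Nrm a K) {g : G} (hg : g • a = a) {c : Ω} {x : G} :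
    x ∈ K ⊓ stabilizer G c ↔ g * x * g⁻¹ ∈ K ⊓ stabilizer G (g • c) := by
  have hinv : g⁻¹ • a = a := by rw [inv_smul_eq_iff, hg]
  simp only [Subgroup.mem_inf, mem_stabilizer_iff]
  constructor
  · rintro ⟨h1, h2⟩
    refine ⟨hK.conj g hg x h1, ?_⟩
    simp only [mul_smul, inv_smul_smul, h2]
  · rintro ⟨h1, h2⟩
    refine ⟨?_, ?_⟩
    · have := hK.conj g⁻¹ hinv _ h1
      simpa [mul_assoc] using this
    · simp only [mul_smul, inv_smul_smul] at h2
      exact MulAction.injective g h2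

theorem stabEqv {a : Ω} {K : Subgroup G} (hK : Nrm a K) :
    Eqv G a (fun c d => c ≠ a ∧ d ≠ a ∧ K ⊓ stabilizer G c = K ⊓ stabilizer G d) := by
  refine ⟨fun h => ⟨h.1, h.2.1⟩, fun hc => ⟨hc, hc, rfl⟩, ?_, ?_, ?_⟩
  · rintro c d ⟨hc, hd, h⟩
    exact ⟨hd, hc, h.symm⟩
  · rintro c d e ⟨hc, hd, h⟩ ⟨_, he, h'⟩
    exact ⟨hc, he, h.trans h'⟩
  · rintro g hg c d ⟨hc, hd, h⟩
    refine ⟨smul_ne_of_fix hg hc, smul_ne_of_fix hg hd, ?_⟩
    ext y
    have hy : y = g * (g⁻¹ * y * g) * g⁻¹ := by group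
    rw [hy, ← stab_conj hK hg, ← stab_conj hK hg, h]

section Card

variable {p : ℕ} {a b : Ω}

theorem card_stab_eq [Fintype Ω] [Finite G] (hΩ : Fintype.card Ω = p ^ 2 + 1)
    (h2 : ∀ {u v u' v' : Ω}, u ≠ v → u' ≠ v' → ∃ g : G, g • u = u' ∧ g • v = v') (hab : a ≠ b) :
    Nat.card (stabilizer G a) = p ^ 2 * Nat.card ↥(stabilizer G a ⊓ stabilizer G b) := by
  have hcompl : ({a}ᶜ : Set Ω).ncard = p ^ 2 := by
    rw [Set.ncard_compl, Set.ncard_singleton, Nat.card_eq_fintype_card, hΩ]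
    omega
  have horb : orbS (stabilizer G a) b = {a}ᶜ := by
    ext d
    simp only [orbS, Set.mem_setOf_eq, Set.mem_compl_iff, Set.mem_singleton_iff]
    constructor
    · rintro ⟨k, hk, rfl⟩
      exact smul_ne_of_fix hk hab.symm
    · intro hd
      obtain ⟨g, hg1, hg2⟩ := h2 hab (Ne.symm hd)
      exact ⟨g, hg1, hg2⟩
  rw [card_orbS (stabilizer G a) b, horb, hcompl]

theorem card_G_eq [Fintype Ω] [Finite G] (hΩ : Fintype.card Ω = p ^ 2 + 1)
    (h2 : ∀ {u v u' v' : Ω}, u ≠ v → u' ≠ v' → ∃ g : G, g • u = u' ∧ g • v = v') (hab : a ≠ b) :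
    Nat.card G = (p ^ 2 + 1) * (p ^ 2 * Nat.card ↥(stabilizer G a ⊓ stabilizer G b)) := by
  have h1 := card_orbS (⊤ : Subgroup G) a
  have horb : orbS (⊤ : Subgroup G) a = Set.univ := by
    ext d
    simp only [orbS, Set.mem_setOf_eq, Set.mem_univ, iff_true]
    by_cases hd : d = a
    · exact ⟨1, Subgroup.one_mem _, by rw [hd, one_smul]⟩
    · obtain ⟨g, hg1, _⟩ := h2 hab hd
      exact ⟨g, Subgroup.mem_top _, hg1⟩
  rw [horb, Set.ncard_univ, Nat.card_eq_fintype_card (α := Ω), hΩ, top_inf_eq, card_stab_eq hΩ h2 hab,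
    Subgroup.card_top] at h1
  exact h1

/-- `H` has even order when `p` is odd. -/
theorem H_even [Fintype Ω] [Finite G] [FaithfulSMul G Ω] (hp : p.Prime) (hodd : p ≠ 2)
    (hΩ : Fintype.card Ω = p ^ 2 + 1)
    (h2 : ∀ {u v u' v' : Ω}, u ≠ v → u' ≠ v' → ∃ g : G, g • u = u' ∧ g • v = v') (hab : a ≠ b) :
    2 ∣ Nat.card ↥(stabilizer G a ⊓ stabilizer G b) := by
  by_contra hH
  have hcard := card_G_eq hΩ h2 hab
  set h := Nat.card ↥(stabilizer G a ⊓ stabilizer G b) with hh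
  obtain ⟨t, ht⟩ := hp.odd_of_ne_two hodd
  have hH' : Nat.Coprime 2 h := (Nat.Prime.coprime_iff_not_dvd Nat.prime_two).2 hH
  set m := (2 * t ^ 2 + 2 * t + 1) * (p ^ 2 * h) with hm
  have hG : Nat.card G = 2 * m := by
    rw [hcard, hm, ht]; ring
  have hmodd : ¬ 2 ∣ m := by
    intro hd
    rw [hm] at hd
    rcases (Nat.Prime.dvd_mul Nat.prime_two).1 hd with h3 | h3
    · omega
    · rcases (Nat.Prime.dvd_mul Nat.prime_two).1 h3 with h4 | h4
      · have h5 := Nat.Prime.dvd_of_dvd_pow Nat.prime_two h4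
        have := (Nat.prime_dvd_prime_iff_eq Nat.prime_two hp).1 h5
        exact hodd this.symm
      · exact hH h4
  haveI : Fact (Nat.Prime 2) := ⟨Nat.prime_two⟩
  obtain ⟨S₀⟩ : Nonempty (Sylow 2 G) := inferInstance
  have hS : IsCyclic (S₀ : Subgroup G) := by
    obtain ⟨k, hk⟩ := IsPGroup.iff_card.1 S₀.isPGroup'
    have h3 : Nat.card S₀ ∣ 2 * m := by
      rw [← hG]
      exact Subgroup.card_subgroup_dvd_card _
    have h4 : Nat.card S₀ ∣ 2 := by
      refine Nat.Coprime.dvd_of_dvd_mul_right ?_ h3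
      rw [hk]
      exact Nat.Coprime.pow_left _ ((Nat.Prime.coprime_iff_not_dvd Nat.prime_two).2 hmodd)
    exact isCyclic_of_card_dvd_prime h4
  obtain ⟨K, hK⟩ := Cfsg.Agent.Lib.InvolutionIndexTwo.exists_index_two_of_isCyclic_sylow
    (G := G) ⟨m, by rw [hG]; ring⟩ S₀ hS
  haveI hKn : K.Normal := Subgroup.normal_of_index_eq_two hK
  have hKc : Nat.card G = 2 * Nat.card K := by
    have := K.index_mul_card
    rw [hK] at this
    exact this.symm
  have hKm : Nat.card K = m := by omega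
  -- `K` is non-trivial
  have hpge : 3 ≤ p := by
    have := hp.two_le
    omega
  have hmbig : 2 ≤ m := by
    have h5 : 0 < p ^ 2 * h := Nat.mul_pos (pow_pos hp.pos _) Nat.card_pos
    have h6 : 1 ≤ t := by omega
    rw [hm]
    nlinarith
  have hKne : ∃ k ∈ K, k ≠ 1 := by
    by_contra hcon
    push Not at hcon
    have : K = ⊥ := by
      rw [eq_bot_iff]
      intro k hk
      exact hcon k hk
    rw [this, Subgroup.card_bot] at hKm
    omega
  obtain ⟨k, hk, hk1⟩ := hKne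
  obtain ⟨x, hx⟩ : ∃ x : Ω, k • x ≠ x := by
    by_contra hcon
    push Not at hcon
    apply hk1
    apply FaithfulSMul.eq_of_smul_eq_smul (α := Ω)
    intro c
    rw [one_smul]
    exact hcon c
  have htrans : ∀ u v : Ω, ∃ k' ∈ K, k' • u = v := by
    intro u v
    by_cases huv : u = v
    · exact ⟨1, K.one_mem, by rw [huv, one_smul]⟩
    · obtain ⟨g, hg1, hg2⟩ := h2 hx.symm huv
      refine ⟨g * k * g⁻¹, hKn.conj_mem k hk g, ?_⟩
      rw [← hg1]
      simp only [mul_smul, inv_smul_smul, hg2]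
  have horb : orbS K a = Set.univ := by
    ext d
    simp only [orbS, Set.mem_setOf_eq, Set.mem_univ, iff_true]
    exact htrans a d
  have h5 := card_orbS K a
  rw [horb, Set.ncard_univ, Nat.card_eq_fintype_card (α := Ω), hΩ, hKm] at h5
  apply hmodd
  rw [h5, ht]
  refine Dvd.dvd.mul_right ?_ _
  exact ⟨2 * t ^ 2 + 2 * t + 1, by ring⟩

/-- stabilizer equality from fixing. -/
theorem stab_eq_of_fix [Finite G]
    (h2 : ∀ {u v u' v' : Ω}, u ≠ v → u' ≠ v' → ∃ g : G, g • u = u' ∧ g • v = v') (hab : a ≠ b)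
    {d : Ω} (hd : d ≠ a) (hfix : ∀ h ∈ stabilizer G a ⊓ stabilizer G b, h • d = d) :
    stabilizer G a ⊓ stabilizer G b = stabilizer G a ⊓ stabilizer G d := by
  apply Subgroup.eq_of_le_of_card_ge
  · intro x hx
    exact Subgroup.mem_inf.2 ⟨(Subgroup.mem_inf.1 hx).1, hfix x hx⟩
  · obtain ⟨g, hg1, hg2⟩ := h2 hab hd.symm
    have := card_inf_stab g a b
    rw [hg1, hg2] at this
    exact this.le

/-- `H` fixes only `a` and `b`. -/
theorem fix_H [Fintype Ω] [Finite G] [FaithfulSMul G Ω] {P : Subgroup G} (hp : p.Prime)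
    (hodd : p ≠ 2) (hΩ : Fintype.card Ω = p ^ 2 + 1)
    (h2 : ∀ {u v u' v' : Ω}, u ≠ v → u' ≠ v' → ∃ g : G, g • u = u' ∧ g • v = v') (hab : a ≠ b)
    (hP : PD G p a b P) {c : Ω} (hfix : ∀ h ∈ stabilizer G a ⊓ stabilizer G b, h • c = c) :
    c = a ∨ c = b := by
  classical
  by_contra hcon
  push Not at hcon
  obtain ⟨hca, hcb⟩ := hcon
  have hK : Nrm a (stabilizer G a) := by
    refine ⟨fun k hk => hk, ?_⟩
    intro g hg k hk
    have hinv : g⁻¹ • a = a := by rw [inv_smul_eq_iff, hg]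
    have hk' : k • a = a := hk
    rw [mem_stabilizer_iff]
    simp only [mul_smul, hinv, hk', hg]
  have E := stabEqv hK
  set r : Ω → Ω → Prop := fun c d => c ≠ a ∧ d ≠ a ∧
    stabilizer G a ⊓ stabilizer G c = stabilizer G a ⊓ stabilizer G d with hr
  have hrbd : ∀ d, d ≠ a → (∀ h ∈ stabilizer G a ⊓ stabilizer G b, h • d = d) → r b d := by
    intro d hd hf
    exact ⟨hab.symm, hd, stab_eq_of_fix h2 hab hd hf⟩
  have hsz := class_size hp hP E hab.symm
  rcases hsz with h1 | h1 | h1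
  · -- singleton classes
    have hb1 : b ∈ {d | r b d} := E.refl hab.symm
    have hc1 : c ∈ {d | r b d} := hrbd c hca hfix
    have hsing := (Set.ncard_le_one_iff (Set.toFinite {d | r b d})).1 (le_of_eq h1) hb1 hc1
    exact hcb hsing.symm
  · -- lemma A
    have B := Eqv.base hP E h1
    have htr : ∀ x : Ω, ∃ g : G, g • a = x := by
      intro x
      by_cases hx : x = a
      · exact ⟨1, by rw [hx, one_smul]⟩
      · obtain ⟨g, hg1, _⟩ := h2 hab hx
        exact ⟨g, hg1⟩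
    have S' := B.sys htr
    refine S'.false_of_symm hp.two_le hΩ h2 hab (symm_of_imp S' hab ?_)
    intro d hda hdb hT
    rw [lift_base B]
    obtain ⟨t, ht1, ht2⟩ := h2 hab hab.symm
    have hT' : lift G a r (t • a) (t • b) d := by
      rw [ht1, ht2]; exact hT
    rw [lift_smul B] at hT'
    rw [inv_smul_smul] at hT'
    have htinv : t⁻¹ • a = b := by rw [inv_smul_eq_iff, ht2]
    have htinv2 : t⁻¹ • b = a := by rw [inv_smul_eq_iff, ht1]
    apply hrbd d hda
    intro x hx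
    have hx1 : x • a = a := (Subgroup.mem_inf.1 hx).1
    have hx2 : x • b = b := (Subgroup.mem_inf.1 hx).2
    have hmem : t⁻¹ * x * t ∈ stabilizer G a ⊓ stabilizer G b := by
      refine Subgroup.mem_inf.2 ⟨?_, ?_⟩
      · rw [mem_stabilizer_iff]
        simp only [mul_smul, ht1, hx2, htinv2]
      · rw [mem_stabilizer_iff]
        simp only [mul_smul, ht2, hx1, htinv]
    have h3 := hT'.2.2
    have h4 : t⁻¹ * x * t ∈ stabilizer G a ⊓ stabilizer G (t⁻¹ • d) := by
      rw [← h3]; exact hmem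
    have h5 := (Subgroup.mem_inf.1 h4).2
    rw [mem_stabilizer_iff] at h5
    simp only [mul_smul, smul_inv_smul] at h5
    exact MulAction.injective t⁻¹ h5
  · -- everything fixed
    have hall : ∀ d, d ≠ a → r b d := by
      have hsub : {d | r b d} ⊆ {a}ᶜ := fun d hd => (E.ne hd).2
      have hcompl : ({a}ᶜ : Set Ω).ncard = p ^ 2 := by
        rw [Set.ncard_compl, Set.ncard_singleton, Nat.card_eq_fintype_card, hΩ]
        omega
      have heq := Set.eq_of_subset_of_ncard_le hsub (by rw [hcompl, h1])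
      intro d hd
      have : d ∈ ({a}ᶜ : Set Ω) := hd
      rw [← heq] at this
      exact this
    have hHbot : stabilizer G a ⊓ stabilizer G b = ⊥ := by
      rw [eq_bot_iff]
      intro x hx
      rw [Subgroup.mem_bot]
      apply FaithfulSMul.eq_of_smul_eq_smul (α := Ω)
      intro d
      rw [one_smul]
      by_cases hd : d = a
      · rw [hd]; exact (Subgroup.mem_inf.1 hx).1
      · have h3 := (hall d hd).2.2
        rw [h3] at hx
        exact (Subgroup.mem_inf.1 hx).2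
    have h4 := H_even hp hodd hΩ h2 hab
    rw [hHbot, Subgroup.card_bot] at h4
    omega

end Card

end Cfsg.Agent.Lib.DPrimK
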