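import Mathlib
import Cfsg.Agent.Lib.DPrimK
import Cfsg.Agent.Lib.DPrimI1

set_option autoImplicit false

namespace Cfsg.Agent.Lib.DPrimI2

open MulAction Cfsg.Agent.Lib.DPrimA Cfsg.Agent.Lib.DPrimB Cfsg.Agent.Lib.DPrimK
  Cfsg.Agent.Lib.DPrimI1

variable {G Ω : Type*} [Group G] [MulAction G Ω]
  {p : ℕ} {a b : Ω} {P : Subgroup G}

section DC

variable [Fintype Ω] [Finite G]

open Classical in
/-- The double-counting identity. -/
theorem double_count
    (h2 : ∀ {u v u' v' : Ω}, u ≠ v → u' ≠ v' → ∃ g : G, g • u = u' ∧ g • v = v') (hab : a ≠ b)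
    (Z : Finset G) (hZconj : ∀ g : G, ∀ z ∈ Z, g * z * g⁻¹ ∈ Z) (hZinv : ∀ z ∈ Z, z ^ 2 = 1) (f : ℕ)
    (hf : ∀ z ∈ Z, (Finset.univ.filter (fun x : Ω => z • x = x)).card = f) :
    (Z.filter (fun z => z • a = b ∧ z • b = a)).card * (f * (f - 1)) =
      (Z.filter (fun z => z • a = a ∧ z • b = b)).card * (Fintype.card Ω - f) := by
  set n := Fintype.card Ω with hn
  set Pairs : Finset (Ω × Ω) := (Finset.univ : Finset Ω).offDiag with hPairs
  have hPc : Pairs.card = n * n - n := by
    rw [hPairs, Finset.offDiag_card, Finset.card_univ]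
  have hn2 : 2 ≤ n := by
    have : 1 < Fintype.card Ω := Fintype.one_lt_card_iff.2 ⟨a, b, hab⟩
    omega
  have hPpos : 0 < Pairs.card := by
    rw [hPc]
    have : n * 1 < n * n := Nat.mul_lt_mul_of_pos_left (by omega) (by omega)
    omega
  -- invariance under the transitive action
  have hinv : ∀ (R : Ω → Ω → G → Prop), (∀ g : G, ∀ x y z, R x y z → R (g • x) (g • y) (g * z * g⁻¹)) →
      ∀ q ∈ Pairs, (Z.filter (R q.1 q.2)).card = (Z.filter (R a b)).card := by
    intro R hR q hq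
    have hq' : q.1 ≠ q.2 := by
      rw [hPairs, Finset.mem_offDiag] at hq
      exact hq.2.2
    obtain ⟨g, hg1, hg2⟩ := h2 hab hq'
    have himg : Z.filter (R q.1 q.2) = (Z.filter (R a b)).image (fun z => g * z * g⁻¹) := by
      ext y
      simp only [Finset.mem_filter, Finset.mem_image]
      constructor
      · rintro ⟨hy, hRy⟩
        refine ⟨g⁻¹ * y * g, ⟨?_, ?_⟩, by group⟩
        · simpa using hZconj g⁻¹ y hy
        · have := hR g⁻¹ _ _ _ hRy
          rw [← hg1, ← hg2] at this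
          simpa only [inv_smul_smul, inv_inv] using this
      · rintro ⟨z, ⟨hz, hRz⟩, rfl⟩
        refine ⟨hZconj g z hz, ?_⟩
        have := hR g _ _ _ hRz
        rwa [hg1, hg2] at this
    rw [himg, Finset.card_image_of_injective]
    intro x y h
    simpa using h
  -- the first count
  let R₁ : Ω → Ω → G → Prop := fun x y z => z • x = x ∧ z • y = y
  let R₂ : Ω → Ω → G → Prop := fun x y z => z • x = y ∧ z • y = x
  have hR₁ : ∀ g : G, ∀ x y z, R₁ x y z → R₁ (g • x) (g • y) (g * z * g⁻¹) := by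
    rintro g x y z ⟨h1, h3⟩
    constructor
    · simp only [mul_smul, inv_smul_smul, h1]
    · simp only [mul_smul, inv_smul_smul, h3]
  have hR₂ : ∀ g : G, ∀ x y z, R₂ x y z → R₂ (g • x) (g • y) (g * z * g⁻¹) := by
    rintro g x y z ⟨h1, h3⟩
    constructor
    · simp only [mul_smul, inv_smul_smul, h1]
    · simp only [mul_smul, inv_smul_smul, h3]
  have hsum₁ : Pairs.card * (Z.filter (R₁ a b)).card = Z.card * (f * f - f) := by
    have h1 := Finset.sum_card_bipartiteAbove_eq_sum_card_bipartiteBelow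
      (s := Pairs) (t := Z) (fun q z => R₁ q.1 q.2 z)
    have h3 : ∑ q ∈ Pairs, (Finset.bipartiteAbove (fun q z => R₁ q.1 q.2 z) Z q).card =
        Pairs.card * (Z.filter (R₁ a b)).card := by
      have hc : ∀ q ∈ Pairs, (Finset.bipartiteAbove (fun q z => R₁ q.1 q.2 z) Z q).card =
          (Z.filter (R₁ a b)).card := fun q hq => by
        have := hinv R₁ hR₁ q hq
        convert this
        ext z
        simp only [Finset.bipartiteAbove, Finset.mem_filter]
      rw [Finset.sum_congr rfl hc, Finset.sum_const, smul_eq_mul]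
    have h4 : ∑ z ∈ Z, (Finset.bipartiteBelow (fun q z => R₁ q.1 q.2 z) Pairs z).card =
        Z.card * (f * f - f) := by
      rw [← smul_eq_mul, ← Finset.sum_const]
      apply Finset.sum_congr rfl
      intro z hz
      have : Finset.bipartiteBelow (fun q z => R₁ q.1 q.2 z) Pairs z =
          (Finset.univ.filter (fun x : Ω => z • x = x)).offDiag := by
        ext q
        simp only [Finset.bipartiteBelow, Finset.mem_filter, Finset.mem_offDiag, Finset.mem_univ,
          true_and, R₁, hPairs]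
        tauto
      rw [this, Finset.offDiag_card, hf z hz]
    rw [← h3, h1, h4]
  have hsum₂ : Pairs.card * (Z.filter (R₂ a b)).card = Z.card * (n - f) := by
    have h1 := Finset.sum_card_bipartiteAbove_eq_sum_card_bipartiteBelow
      (s := Pairs) (t := Z) (fun q z => R₂ q.1 q.2 z)
    have h3 : ∑ q ∈ Pairs, (Finset.bipartiteAbove (fun q z => R₂ q.1 q.2 z) Z q).card =
        Pairs.card * (Z.filter (R₂ a b)).card := by
      have hc : ∀ q ∈ Pairs, (Finset.bipartiteAbove (fun q z => R₂ q.1 q.2 z) Z q).card =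
          (Z.filter (R₂ a b)).card := fun q hq => by
        have := hinv R₂ hR₂ q hq
        convert this
        ext z
        simp only [Finset.bipartiteAbove, Finset.mem_filter]
      rw [Finset.sum_congr rfl hc, Finset.sum_const, smul_eq_mul]
    have h4 : ∑ z ∈ Z, (Finset.bipartiteBelow (fun q z => R₂ q.1 q.2 z) Pairs z).card =
        Z.card * (n - f) := by
      rw [← smul_eq_mul, ← Finset.sum_const]
      apply Finset.sum_congr rfl
      intro z hz
      have hz2 : ∀ x : Ω, z • z • x = x := by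
        intro x
        rw [← mul_smul, ← pow_two, hZinv z hz, one_smul]
      have : Finset.bipartiteBelow (fun q z => R₂ q.1 q.2 z) Pairs z =
          (Finset.univ.filter (fun x : Ω => ¬ z • x = x)).image (fun x => (x, z • x)) := by
        ext ⟨x, y⟩
        simp only [Finset.bipartiteBelow, Finset.mem_filter, Finset.mem_offDiag, Finset.mem_univ,
          true_and, R₂, hPairs, Finset.mem_image, Prod.mk.injEq]
        constructor
        · rintro ⟨hxy, rfl, _⟩
          exact ⟨x, fun h => hxy h.symm, rfl, rfl⟩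
        · rintro ⟨x', hx', rfl, rfl⟩
          exact ⟨fun h => hx' h.symm, rfl, hz2 _⟩
      rw [this, Finset.card_image_of_injective _ (fun x y h => (Prod.ext_iff.1 h).1),
        Finset.filter_not, Finset.card_sdiff_of_subset (Finset.subset_univ _), Finset.card_univ, hf z hz]
    rw [← h3, h1, h4]
  have hw : (Z.filter (fun z => z • a = a ∧ z • b = b)) = Z.filter (R₁ a b) := rfl
  have hs : (Z.filter (fun z => z • a = b ∧ z • b = a)) = Z.filter (R₂ a b) := rfl
  rw [hw, hs]
  have hff : f * (f - 1) = f * f - f := by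
    rw [Nat.mul_sub, mul_one]
  rw [hff]
  apply Nat.eq_of_mul_eq_mul_left hPpos
  calc Pairs.card * ((Z.filter (R₂ a b)).card * (f * f - f))
      = (Pairs.card * (Z.filter (R₂ a b)).card) * (f * f - f) := by ring
    _ = Z.card * (n - f) * (f * f - f) := by rw [hsum₂]
    _ = (Z.card * (f * f - f)) * (n - f) := by ring
    _ = (Pairs.card * (Z.filter (R₁ a b)).card) * (n - f) := by rw [hsum₁]
    _ = Pairs.card * ((Z.filter (R₁ a b)).card * (n - f)) := by ring

end DC

/-- Centraliser of `z` in `P`. -/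
def cenP (P : Subgroup G) (z : G) : Subgroup G where
  carrier := {v | v ∈ P ∧ z * v * z⁻¹ = v}
  mul_mem' := by
    rintro x y ⟨hx, hx2⟩ ⟨hy, hy2⟩
    refine ⟨P.mul_mem hx hy, ?_⟩
    calc z * (x * y) * z⁻¹ = (z * x * z⁻¹) * (z * y * z⁻¹) := by group
      _ = x * y := by rw [hx2, hy2]
  one_mem' := ⟨P.one_mem, by group⟩
  inv_mem' := by
    rintro x ⟨hx, hx2⟩
    refine ⟨P.inv_mem hx, ?_⟩
    calc z * x⁻¹ * z⁻¹ = (z * x * z⁻¹)⁻¹ := by group
      _ = x⁻¹ := by rw [hx2]

theorem faith_of [FaithfulSMul G Ω] (hP : PD G p a b P) {h : G} (hha : h • a = a) (hhb : h • b = b)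
    (hc : ∀ v ∈ P, h * v * h⁻¹ = v) : h = 1 := by
  apply FaithfulSMul.eq_of_smul_eq_smul (α := Ω)
  intro c
  rw [one_smul]
  by_cases hca : c = a
  · rw [hca, hha]
  · obtain ⟨v, hv, rfl⟩ := hP.trans c hca
    have h1 := hc v hv
    have h3 : h • v • b = (h * v * h⁻¹) • b := by
      have hinv : h⁻¹ • b = b := by rw [inv_smul_eq_iff, hhb]
      simp only [mul_smul, hinv]
    rw [h3, h1]

section Counting

variable [Fintype Ω] [Finite G]

open Classical in
theorem fix_count (hP : PD G p a b P) (hab : a ≠ b) {z : G} (hza : z • a = a) (hzb : z • b = b)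
    (hzP : ∀ v ∈ P, z * v * z⁻¹ ∈ P) :
    (Finset.univ.filter (fun x : Ω => z • x = x)).card = Nat.card (cenP P z) + 1 := by
  letI : Fintype (cenP P z) := Fintype.ofFinite _
  have hinv : z⁻¹ • b = b := by rw [inv_smul_eq_iff, hzb]
  have hact : ∀ v : G, z • v • b = (z * v * z⁻¹) • b := by
    intro v
    simp only [mul_smul, hinv]
  have hset : Finset.univ.filter (fun x : Ω => z • x = x) =
      insert a (Finset.image (fun v : cenP P z => (v : G) • b) Finset.univ) := by
    ext x
    simp only [Finset.mem_filter, Finset.mem_univ, true_and, Finset.mem_insert, Finset.mem_image,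
      Subtype.exists]
    constructor
    · intro hx
      by_cases hxa : x = a
      · exact Or.inl hxa
      · right
        obtain ⟨v, hv, rfl⟩ := hP.trans x hxa
        have h3 : z * v * z⁻¹ = v := by
          apply P_smul_inj hP hab.symm (hzP v hv) hv
          rw [← hact]
          exact hx
        exact ⟨v, ⟨hv, h3⟩, rfl⟩
    · rintro (rfl | ⟨v, ⟨hv, hv2⟩, rfl⟩)
      · exact hza
      · rw [hact, hv2]
  rw [hset, Finset.card_insert_of_notMem, Finset.card_image_of_injective, Finset.card_univ,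
    Nat.card_eq_fintype_card]
  · intro x y h
    exact Subtype.ext (P_smul_inj hP hab.symm x.2.1 y.2.1 h)
  · simp only [Finset.mem_image, Finset.mem_univ, true_and, not_exists]
    intro x h
    have := hP.le x.2.1
    exact smul_ne_of_fix this hab.symm h

open Classical in
theorem fix_conj (g z : G) :
    (Finset.univ.filter (fun x : Ω => (g * z * g⁻¹) • x = x)).card =
      (Finset.univ.filter (fun x : Ω => z • x = x)).card := by
  have : Finset.univ.filter (fun x : Ω => (g * z * g⁻¹) • x = x) =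
      (Finset.univ.filter (fun x : Ω => z • x = x)).image (fun x => g • x) := by
    ext y
    simp only [Finset.mem_filter, Finset.mem_univ, true_and, Finset.mem_image]
    constructor
    · intro h
      refine ⟨g⁻¹ • y, ?_, smul_inv_smul _ _⟩
      simp only [mul_smul] at h
      have h3 := congrArg (fun x => g⁻¹ • x) h
      simpa only [inv_smul_smul] using h3
    · rintro ⟨x, hx, rfl⟩
      simp only [mul_smul, inv_smul_smul, hx]
  rw [this, Finset.card_image_of_injective _ (MulAction.injective g)]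

theorem eq_one_of_sq_of_card {v : G} (hp : p.Prime) (hodd : p ≠ 2) (hP : Nat.card P = p ^ 2)
    (hv : v ∈ P) (h2 : v ^ 2 = 1) : v = 1 := by
  have h3 : v ^ (p ^ 2) = 1 := by
    have := pow_card_eq_one' (x := (⟨v, hv⟩ : P))
    rw [hP] at this
    exact congrArg Subtype.val this
  have hc : Nat.Coprime 2 (p ^ 2) :=
    Nat.Coprime.pow_right _ ((Nat.coprime_primes Nat.prime_two hp).2 (Ne.symm hodd))
  have h4 := pow_gcd_eq_one.2 ⟨h2, h3⟩
  rw [hc, pow_one] at h4
  exact h4

theorem cen_cases [FaithfulSMul G Ω] (hp : p.Prime) (hodd : p ≠ 2) (hP : PD G p a b P)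
    {z : G} (hza : z • a = a) (hzb : z • b = b) (hzP : ∀ v ∈ P, z * v * z⁻¹ ∈ P) (hz1 : z ≠ 1)
    (hz2 : z ^ 2 = 1) :
    ((∀ v ∈ P, z * v * z⁻¹ = v⁻¹) ∧ Nat.card (cenP P z) = 1) ∨
      (¬ (∀ v ∈ P, z * v * z⁻¹ = v⁻¹) ∧ Nat.card (cenP P z) = p) := by
  have hle : cenP P z ≤ P := fun v hv => hv.1
  have hzz : z * z = 1 := by rw [← pow_two]; exact hz2
  have hzinv : z⁻¹ = z := inv_eq_of_mul_eq_one_right hzz
  by_cases hinv : ∀ v ∈ P, z * v * z⁻¹ = v⁻¹
  · left
    refine ⟨hinv, ?_⟩
    have hbot : cenP P z = ⊥ := by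
      rw [eq_bot_iff]
      rintro v ⟨hv, hv2⟩
      rw [Subgroup.mem_bot]
      apply eq_one_of_sq_of_card hp hodd hP.card hv
      rw [pow_two]
      nth_rewrite 1 [← hv2]
      rw [hinv v hv, inv_mul_cancel]
    rw [hbot, Subgroup.card_bot]
  · right
    refine ⟨hinv, ?_⟩
    have hd : Nat.card (cenP P z) ∣ p ^ 2 := by
      rw [← hP.card]
      exact Subgroup.card_dvd_of_le hle
    obtain ⟨i, hi, hc⟩ := (Nat.dvd_prime_pow hp).1 hd
    interval_cases i
    · exfalso
      apply hinv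
      intro v hv
      rw [pow_zero] at hc
      have hbot : cenP P z = ⊥ := (Subgroup.eq_bot_iff_card _).2 hc
      have hconj := hzP v hv
      have hmem : v * (z * v * z⁻¹) ∈ cenP P z := by
        refine ⟨P.mul_mem hv hconj, ?_⟩
        have h6 : z * (z * v * z⁻¹) * z⁻¹ = v := by
          rw [hzinv]
          calc z * (z * v * z) * z = (z * z) * v * (z * z) := by group
            _ = v := by rw [hzz, one_mul, mul_one]
        have h7 : z * (v * (z * v * z⁻¹)) * z⁻¹ = (z * v * z⁻¹) * (z * (z * v * z⁻¹) * z⁻¹) := by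
          group
        rw [h7, h6]
        exact hP.comm _ hconj _ hv
      rw [hbot, Subgroup.mem_bot] at hmem
      exact eq_inv_of_mul_eq_one_right hmem
    · simpa using hc
    · exfalso
      have heq : cenP P z = P := by
        apply Subgroup.eq_of_le_of_card_ge hle
        rw [hc, hP.card]
      apply hz1
      apply faith_of hP hza hzb
      intro v hv
      rw [← heq] at hv
      exact hv.2

open Classical in
/-- The packaged count. -/
theorem class_dc
    (h2 : ∀ {u v u' v' : Ω}, u ≠ v → u' ≠ v' → ∃ g : G, g • u = u' ∧ g • v = v') (hab : a ≠ b)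
    {z₀ : G} (hz₀2 : z₀ ^ 2 = 1) (f : ℕ)
    (hf : (Finset.univ.filter (fun x : Ω => z₀ • x = x)).card = f)
    (hz₀a : z₀ • a = a) (hz₀b : z₀ • b = b)
    (huniq : ∀ y : G, (∃ g : G, y = g * z₀ * g⁻¹) → y • a = a → y • b = b → y = z₀) :
    ∃ I : Finset G, (∀ i ∈ I, i ^ 2 = 1 ∧ i • a = b ∧ i • b = a) ∧
      I.card * (f * (f - 1)) = Fintype.card Ω - f := by
  letI : Fintype G := Fintype.ofFinite _
  let Z : Finset G := Finset.univ.filter (fun y => ∃ g : G, y = g * z₀ * g⁻¹)
  have hZmem : ∀ y, y ∈ Z ↔ ∃ g : G, y = g * z₀ * g⁻¹ := by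
    intro y
    simp [Z]
  have hdc := double_count h2 hab Z ?_ ?_ f ?_
  · refine ⟨Z.filter (fun z => z • a = b ∧ z • b = a), ?_, ?_⟩
    · intro i hi
      rw [Finset.mem_filter, hZmem] at hi
      obtain ⟨⟨g, rfl⟩, h3⟩ := hi
      refine ⟨?_, h3⟩
      rw [conj_pow, hz₀2]
      group
    · have hw : Z.filter (fun z => z • a = a ∧ z • b = b) = {z₀} := by
        ext y
        simp only [Finset.mem_filter, hZmem, Finset.mem_singleton]
        constructor
        · rintro ⟨h3, h4, h5⟩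
          exact huniq y h3 h4 h5
        · rintro rfl
          exact ⟨⟨1, by group⟩, hz₀a, hz₀b⟩
      rw [hw, Finset.card_singleton, one_mul] at hdc
      exact hdc
  · intro g y hy
    rw [hZmem] at hy ⊢
    obtain ⟨k, rfl⟩ := hy
    exact ⟨g * k, by group⟩
  · intro y hy
    rw [hZmem] at hy
    obtain ⟨g, rfl⟩ := hy
    rw [conj_pow, hz₀2]
    group
  · intro y hy
    rw [hZmem] at hy
    obtain ⟨g, rfl⟩ := hy
    rw [fix_conj, hf]

open Classical in
/-- The case `P ⊴ G_a`. -/
theorem case1 [FaithfulSMul G Ω] {T₀ : Ω → Ω → Ω → Prop} (hp : p.Prime) (hodd : p ≠ 2)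
    (hΩ : Fintype.card Ω = p ^ 2 + 1)
    (h2 : ∀ {u v u' v' : Ω}, u ≠ v → u' ≠ v' → ∃ g : G, g • u = u' ∧ g • v = v')
    (S : Sys G p T₀) (hab : a ≠ b) (hP : PD G p a b P)
    (hH : ¬ p ∣ Nat.card ↥(stabilizer G a ⊓ stabilizer G b))
    (hN : ∀ g : G, g • a = a → ∀ v ∈ P, g * v * g⁻¹ ∈ P) : False := by
  have hb : b ≠ a := hab.symm
  have hp3 : 3 ≤ p := by
    have := hp.two_le
    omega
  -- the relation at `a`
  have E : Eqv G a (T₀ a) := by
    refine ⟨fun h => S.ne h, fun h => S.refl h, fun h => S.symm h, fun h h' => S.trans h h', ?_⟩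
    intro g hg c d h
    have := S.inv g h
    rwa [hg] at this
  set H : Subgroup G := stabilizer G a ⊓ stabilizer G b with hHdef
  have hHmem : ∀ h, h ∈ H ↔ h • a = a ∧ h • b = b := by
    intro h
    rw [hHdef, Subgroup.mem_inf, mem_stabilizer_iff, mem_stabilizer_iff]
  set U : Subgroup G := classSub hP E hb with hU
  have hUmem : ∀ v, v ∈ U ↔ v ∈ P ∧ T₀ a b (v • b) := fun v => Iff.rfl
  have hact : ∀ h ∈ H, ∀ v : G, h • v • b = (h * v * h⁻¹) • b := by
    intro h hh v
    have hinv : h⁻¹ • b = b := by rw [inv_smul_eq_iff, ((hHmem h).1 hh).2]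
    simp only [mul_smul, hinv]
  have A : Act P U H p := by
    refine ⟨hp, hodd, fun v hv => hv.1, hP.comm, hP.card, ?_, ?_, ?_, ?_, hH⟩
    · rw [hU, ← card_class hP E hb]
      exact S.card hb
    · intro h hh v hv
      exact hN h ((hHmem h).1 hh).1 v hv
    · intro h hh u hu
      obtain ⟨h1, h3⟩ := (hHmem h).1 hh
      rw [hUmem] at hu ⊢
      refine ⟨hN h h1 u hu.1, ?_⟩
      rw [← hact h hh]
      have := E.inv h h1 hu.2
      rwa [h3] at this
    · intro h hh hc
      obtain ⟨h1, h3⟩ := (hHmem h).1 hh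
      exact faith_of hP h1 h3 hc
  haveI := A.normal
  have hNH : ∀ h ∈ H, ∀ v ∈ P, h * v * h⁻¹ ∈ P := A.pP
  have hcomm : ∀ h ∈ H, ∀ k ∈ H, h * k = k * h := fun h hh k hk => H_comm A hh hk
  have hHdvd := card_H_dvd A
  -- all involutions of `H` are governed by inversion or not
  by_cases hexInv : ∃ z₁ ∈ H, z₁ ≠ 1 ∧ z₁ ^ 2 = 1 ∧ ∀ v ∈ P, z₁ * v * z₁⁻¹ = v⁻¹
  · -- Case A
    obtain ⟨z₁, hz₁H, hz₁1, hz₁2, hz₁inv⟩ := hexInv
    obtain ⟨hz₁a, hz₁b⟩ := (hHmem z₁).1 hz₁H
    have hz₁cen : Nat.card (cenP P z₁) = 1 := by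
      rcases cen_cases hp hodd hP hz₁a hz₁b (hNH z₁ hz₁H) hz₁1 hz₁2 with h1 | h1
      · exact h1.2
      · exact absurd hz₁inv h1.1
    have hf : (Finset.univ.filter (fun x : Ω => z₁ • x = x)).card = 2 := by
      rw [fix_count hP hab hz₁a hz₁b (hNH z₁ hz₁H), hz₁cen]
    have huniq : ∀ y : G, (∃ g : G, y = g * z₁ * g⁻¹) → y • a = a → y • b = b → y = z₁ := by
      rintro y ⟨g, rfl⟩ hya hyb
      set y := g * z₁ * g⁻¹ with hy
      have hyH : y ∈ H := (hHmem y).2 ⟨hya, hyb⟩
      have hy2 : y ^ 2 = 1 := by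
        rw [hy, conj_pow, hz₁2]
        group
      have hy1 : y ≠ 1 := by
        intro h
        rw [hy] at h
        exact hz₁1 (conj_eq_one_iff.1 h)
      have hfy : (Finset.univ.filter (fun x : Ω => y • x = x)).card = 2 := by
        rw [hy, fix_conj, hf]
      have hyinv : ∀ v ∈ P, y * v * y⁻¹ = v⁻¹ := by
        rcases cen_cases hp hodd hP hya hyb (hNH y hyH) hy1 hy2 with h1 | h1
        · exact h1.1
        · exfalso
          rw [fix_count hP hab hya hyb (hNH y hyH), h1.2] at hfy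
          omega
      have hprod : y * z₁ = 1 := by
        have hmemH := H.mul_mem hyH hz₁H
        obtain ⟨h3, h4⟩ := (hHmem _).1 hmemH
        apply faith_of hP h3 h4
        intro v hv
        have h5 : y * z₁ * v * (y * z₁)⁻¹ = y * (z₁ * v * z₁⁻¹) * y⁻¹ := by group
        rw [h5, hz₁inv v hv]
        have h6 : y * v⁻¹ * y⁻¹ = (y * v * y⁻¹)⁻¹ := by group
        rw [h6, hyinv v hv, inv_inv]
      have h3 : z₁⁻¹ = z₁ := inv_eq_of_mul_eq_one_right (by rw [← pow_two, hz₁2])
      rw [← h3]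
      exact eq_inv_of_mul_eq_one_left hprod
    obtain ⟨I, hI, hIc⟩ := class_dc h2 hab hz₁2 2 hf hz₁a hz₁b huniq
    rw [hΩ] at hIc
    have hIc2 : I.card * 2 = p ^ 2 - 1 := by
      have : p ^ 2 + 1 - 2 = p ^ 2 - 1 := by omega
      rw [← this, ← hIc]
    have hsq : 9 ≤ p ^ 2 := by nlinarith
    have hIne : I.Nonempty := by
      rw [← Finset.card_pos]
      omega
    obtain ⟨i₀, hi₀⟩ := hIne
    obtain ⟨hi₀2, hi₀a, hi₀b⟩ := hI i₀ hi₀
    have hi₀i : i₀⁻¹ = i₀ := inv_eq_of_mul_eq_one_right (by rw [← pow_two, hi₀2])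
    -- the inverted subgroup
    let Hm : Subgroup G :=
      { carrier := {h | h ∈ H ∧ i₀ * h * i₀⁻¹ = h⁻¹}
        mul_mem' := by
          rintro x y ⟨hx, hx2⟩ ⟨hy, hy2⟩
          refine ⟨H.mul_mem hx hy, ?_⟩
          calc i₀ * (x * y) * i₀⁻¹ = (i₀ * x * i₀⁻¹) * (i₀ * y * i₀⁻¹) := by group
            _ = x⁻¹ * y⁻¹ := by rw [hx2, hy2]
            _ = (y * x)⁻¹ := by group
            _ = (x * y)⁻¹ := by rw [hcomm y hy x hx]
        one_mem' := ⟨H.one_mem, by group⟩
        inv_mem' := by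
          rintro x ⟨hx, hx2⟩
          refine ⟨H.inv_mem hx, ?_⟩
          calc i₀ * x⁻¹ * i₀⁻¹ = (i₀ * x * i₀⁻¹)⁻¹ := by group
            _ = x⁻¹⁻¹ := by rw [hx2] }
    have hHmmem : ∀ h, h ∈ Hm ↔ h ∈ H ∧ i₀ * h * i₀⁻¹ = h⁻¹ := fun h => Iff.rfl
    have hHmle : Hm ≤ H := fun h hh => hh.1
    let B : Finset G := I.image (fun i => i₀ * i)
    have hBc : B.card = I.card := Finset.card_image_of_injective _ (mul_right_injective i₀)
    have hBsub : (B : Set G) ⊆ (Hm : Set G) := by
      intro x hx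
      simp only [B, Finset.coe_image, Set.mem_image, Finset.mem_coe] at hx
      obtain ⟨i, hi, rfl⟩ := hx
      obtain ⟨hi2, hia, hib⟩ := hI i hi
      have hii : i⁻¹ = i := inv_eq_of_mul_eq_one_right (by rw [← pow_two, hi2])
      refine (hHmmem _).2 ⟨(hHmem _).2 ⟨?_, ?_⟩, ?_⟩
      · rw [mul_smul, hia, hi₀b]
      · rw [mul_smul, hib, hi₀a]
      · rw [hi₀i, mul_inv_rev, hii, hi₀i]
        calc i₀ * (i₀ * i) * i₀ = (i₀ * i₀) * i * i₀ := by group
          _ = i * i₀ := by rw [← pow_two, hi₀2, one_mul]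
    have hIle : I.card ≤ Nat.card Hm := by
      have h3 := Set.ncard_le_ncard hBsub (Set.toFinite _)
      rw [Set.ncard_coe_finset, hBc] at h3
      have h4 : (Hm : Set G).ncard = Nat.card Hm := (Nat.card_coe_set_eq (Hm : Set G)).symm
      rwa [h4] at h3
    -- arithmetic
    obtain ⟨q, hq⟩ : ∃ q, p = q + 1 := ⟨p - 1, by omega⟩
    have hq2 : 2 ≤ q := by omega
    have hp1 : p - 1 = q := by omega
    rw [hp1] at hHdvd
    have hd : Nat.card Hm ∣ Nat.card H := Subgroup.card_dvd_of_le hHmle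
    obtain ⟨e, he⟩ := hd.trans hHdvd
    have hIc3 : I.card * 2 = q ^ 2 + 2 * q := by
      rw [hIc2, hq]
      have : (q + 1) ^ 2 = q ^ 2 + 2 * q + 1 := by ring
      omega
    have he1 : e = 1 := by
      rcases e with _ | _ | e
      · simp at he
        omega
      · rfl
      · exfalso
        have h3 : Nat.card Hm * 2 ≤ q ^ 2 := by
          rw [he]
          exact Nat.mul_le_mul_left _ (by omega)
        have h4 : I.card * 2 ≤ Nat.card Hm * 2 := Nat.mul_le_mul_right _ hIle
        omega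
    rw [he1, mul_one] at he
    have hcardH : Nat.card H = q ^ 2 := by
      apply Nat.dvd_antisymm hHdvd
      rw [he]
      exact hd
    have hHmeq : Hm = H := by
      apply Subgroup.eq_of_le_of_card_ge hHmle
      rw [hcardH, he]
    obtain ⟨z₃, hz₃H, hz₃1, hz₃2, hz₃U, hz₃P⟩ := exists_z3 A (by rw [hcardH, hp1])
    obtain ⟨hz₃a, hz₃b⟩ := (hHmem z₃).1 hz₃H
    have hz₃m : z₃ ∈ Hm := by rw [hHmeq]; exact hz₃H
    have hz₃i : z₃⁻¹ = z₃ := inv_eq_of_mul_eq_one_right (by rw [← pow_two, hz₃2])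
    have hcommi : i₀ * z₃ = z₃ * i₀ := by
      have h3 := hz₃m.2
      rw [hz₃i, hi₀i] at h3
      calc i₀ * z₃ = (i₀ * z₃ * i₀) * i₀ := by
            rw [mul_assoc (i₀ * z₃), ← pow_two, hi₀2, mul_one]
        _ = z₃ * i₀ := by rw [h3]
    have hi₀i₀ : ∀ x : Ω, i₀ • i₀ • x = x := by
      intro x
      rw [← mul_smul, ← pow_two, hi₀2, one_smul]
    have hi : ∀ c, c ≠ a → c ≠ b → T₀ b a c → T₀ a b c := by
      intro c hca hcb hT
      have h3 := S.inv i₀ hT
      rw [hi₀a, hi₀b] at h3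
      -- `i₀ • c` lies in the class of `b`
      have hc'a : i₀ • c ≠ a := (S.ne h3).2
      obtain ⟨u, hu, hub⟩ := hP.trans (i₀ • c) hc'a
      have huU : u ∈ U := (hUmem u).2 ⟨hu, by rw [hub]; exact h3⟩
      have hfix' : z₃ • (i₀ • c) = i₀ • c := by
        rw [← hub, hact z₃ hz₃H, hz₃U u huU]
      have hfix : z₃ • c = c := by
        have h4 : z₃ • (i₀ • i₀ • c) = i₀ • i₀ • c := by
          rw [← mul_smul, ← hcommi, mul_smul, hfix']
        rwa [hi₀i₀] at h4
      obtain ⟨v, hv, rfl⟩ := hP.trans c hca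
      have hzv : z₃ * v * z₃⁻¹ = v := by
        apply P_smul_inj hP hb (hNH z₃ hz₃H v hv) hv
        rw [← hact z₃ hz₃H]
        exact hfix
      exact ((hUmem v).1 (hz₃P v hv hzv)).2
    exact S.false_of_symm hp.two_le hΩ h2 hab (symm_of_imp S hab hi)
  · -- Case B
    push Not at hexInv
    have hH2 : 2 ∣ Nat.card H := H_even hp hodd hΩ h2 hab
    haveI : Fact (Nat.Prime 2) := ⟨Nat.prime_two⟩
    obtain ⟨z', hz'⟩ := exists_prime_orderOf_dvd_card' 2 hH2
    set z : G := (z' : G) with hzdef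
    have hzH : z ∈ H := z'.2
    have hz2 : z ^ 2 = 1 := by
      have := pow_orderOf_eq_one z'
      rw [hz'] at this
      exact congrArg Subtype.val this
    have hz1 : z ≠ 1 := by
      intro h
      have h3 : z' = 1 := Subtype.ext h
      rw [h3, orderOf_one] at hz'
      omega
    obtain ⟨hza, hzb⟩ := (hHmem z).1 hzH
    have hzninv : ¬ ∀ v ∈ P, z * v * z⁻¹ = v⁻¹ := by
      intro h
      obtain ⟨v, hv, hv2⟩ := hexInv z hzH hz1 hz2
      exact hv2 (h v hv)
    have hzcen : Nat.card (cenP P z) = p := by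
      rcases cen_cases hp hodd hP hza hzb (hNH z hzH) hz1 hz2 with h1 | h1
      · exact absurd h1.1 hzninv
      · exact h1.2
    have hf : (Finset.univ.filter (fun x : Ω => z • x = x)).card = p + 1 := by
      rw [fix_count hP hab hza hzb (hNH z hzH), hzcen]
    have huniq : ∀ y : G, (∃ g : G, y = g * z * g⁻¹) → y • a = a → y • b = b → y = z := by
      rintro y ⟨g, rfl⟩ hya hyb
      set y := g * z * g⁻¹ with hy
      by_contra hne
      have hyH : y ∈ H := (hHmem y).2 ⟨hya, hyb⟩
      have hy2 : y ^ 2 = 1 := by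
        rw [hy, conj_pow, hz2]
        group
      have hy1 : y ≠ 1 := by
        intro h
        rw [hy] at h
        exact hz1 (conj_eq_one_iff.1 h)
      rcases invol A hzH hyH hz1 hy1 hz2 hy2 (Ne.symm hne) with h3 | h3 | h3
      · exact hzninv h3
      · obtain ⟨v, hv, hv2⟩ := hexInv y hyH hy1 hy2
        exact hv2 (h3 v hv)
      · obtain ⟨h4, h5, h6⟩ := h3
        obtain ⟨v, hv, hv2⟩ := hexInv _ (H.mul_mem hzH hyH) h4 h5
        exact hv2 (h6 v hv)
    obtain ⟨I, _, hIc⟩ := class_dc h2 hab hz2 (p + 1) hf hza hzb huniq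
    rw [hΩ] at hIc
    simp only [Nat.add_sub_cancel] at hIc
    have h3 : p ^ 2 + 1 - (p + 1) = p * (p - 1) := by
      rw [Nat.mul_sub, mul_one, pow_two]
      omega
    rw [h3] at hIc
    have h4 : I.card * (p + 1) * p = (p - 1) * p := by
      rw [mul_comm (p - 1) p, ← hIc]
      ring
    have h5 : I.card * (p + 1) = p - 1 := Nat.eq_of_mul_eq_mul_right hp.pos h4
    rcases Nat.eq_zero_or_pos I.card with h6 | h6
    · rw [h6, zero_mul] at h5
      omega
    · have h7 : 1 * (p + 1) ≤ I.card * (p + 1) := Nat.mul_le_mul_right _ h6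
      omega

end Counting

end Cfsg.Agent.Lib.DPrimI2
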