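import Mathlib
import Cfsg.Agent.Lib.DPrimK
import Cfsg.Agent.Lib.DPrimC

set_option autoImplicit false

namespace Cfsg.Agent.Lib.DPrimT

open MulAction Cfsg.Agent.Lib.DPrimA Cfsg.Agent.Lib.DPrimB Cfsg.Agent.Lib.DPrimK

variable {G Ω : Type*} [Group G] [MulAction G Ω]
  {p : ℕ} {a b : Ω} {P T : Subgroup G}

/-- commutative form of the design theorem -/
theorem main' {A : Type*} [Group A] [Fintype A] (hc : ∀ x y : A, x * y = y * x) (hp : p.Prime)
    (hp2 : p ≠ 2) (U : Subgroup A) (hU : Nat.card U = p) (x : A)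
    (hxp : x ^ p ∈ U) (W : Finset A) (hWx : ∀ w ∈ W, x⁻¹ * w ∈ U) (hne : W.Nonempty)
    (hm : 2 * W.card ≤ p - 1)
    (hinv : ∀ y y', y ∈ U → y ≠ 1 → y' ∈ U → y' ≠ 1 → ∃ π : Equiv.Perm A, π 1 = 1 ∧ π y = y' ∧
      ∀ v v', v⁻¹ * v' ∈ W ↔ (π v)⁻¹ * π v' ∈ W) : W.card = 1 := by
  letI : CommGroup A := { (inferInstance : Group A) with mul_comm := hc }
  exact Cfsg.Agent.Lib.DPrimC.main hp hp2 U hU x hxp W hWx hne hm hinv

theorem orbS_symm {K : Subgroup G} {c d : Ω} (h : d ∈ orbS K c) : c ∈ orbS K d := by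
  obtain ⟨k, hk, rfl⟩ := h
  exact ⟨k⁻¹, K.inv_mem hk, inv_smul_smul _ _⟩

theorem orbS_eq {K : Subgroup G} {c d : Ω} (h : d ∈ orbS K c) : orbS K d = orbS K c := by
  obtain ⟨k, hk, rfl⟩ := h
  ext e
  constructor
  · rintro ⟨k', hk', rfl⟩
    exact ⟨k' * k, K.mul_mem hk' hk, mul_smul _ _ _⟩
  · rintro ⟨k', hk', rfl⟩
    refine ⟨k' * k⁻¹, K.mul_mem hk' (K.inv_mem hk), ?_⟩
    rw [mul_smul, inv_smul_smul]

theorem self_mem_orbS (K : Subgroup G) (c : Ω) : c ∈ orbS K c := ⟨1, K.one_mem, one_smul _ _⟩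

/-- the orbit relation -/
abbrev rO (a : Ω) (T : Subgroup G) (c d : Ω) : Prop := c ≠ a ∧ d ≠ a ∧ ∃ k ∈ T, k • c = d

theorem rO_iff (hT : Nrm a T) {c : Ω} (hc : c ≠ a) : {d | rO a T c d} = orbS T c := by
  ext d
  constructor
  · rintro ⟨_, _, k, hk, rfl⟩
    exact ⟨k, hk, rfl⟩
  · rintro ⟨k, hk, rfl⟩
    exact ⟨hc, smul_ne_of_fix (hT.le k hk) hc, k, hk, rfl⟩

theorem orb_card (hP : PD G p a b P) (hT : Nrm a T) (hb : b ≠ a) (h : (orbS T b).ncard = p) {c : Ω}
    (hc : c ≠ a) : (orbS T c).ncard = p := by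
  have := class_uniform hP (orbEqv hT) hc
  change Set.ncard {d | rO a T c d} = Set.ncard {d | rO a T b d} at this
  rw [rO_iff hT hc, rO_iff hT hb, h] at this
  exact this

section

variable [Finite G]

theorem exists_u0 (hp : p.Prime) (hP : PD G p a b P) (hT : Nrm a T) (h : (orbS T b).ncard = p) :
    ∃ u₀ ∈ T, u₀ ∈ P ∧ u₀ ≠ 1 ∧ orderOf u₀ = p := by
  haveI : Fact p.Prime := ⟨hp⟩
  have hd : p ∣ Nat.card T := by
    rw [card_orbS T b, h]
    exact dvd_mul_right _ _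
  obtain ⟨y, hy⟩ := exists_prime_orderOf_dvd_card' p hd
  have hy1 : ((y : G)) ^ p = 1 := by
    have := pow_orderOf_eq_one y
    rw [hy] at this
    exact congrArg Subtype.val this
  obtain ⟨g, hg, hgy⟩ := hP.syl y (hT.le _ y.2) ⟨1, by simpa using hy1⟩
  have hne : g * (y : G) * g⁻¹ ≠ 1 := by
    intro h1
    have h2 : (y : G) = 1 := by
      have := conj_eq_one_iff.1 h1
      exact this
    have h3 : y = 1 := Subtype.ext h2
    rw [h3, orderOf_one] at hy
    exact hp.one_lt.ne hy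
  refine ⟨g * y * g⁻¹, hT.conj g hg _ y.2, hgy, hne, orderOf_eq_prime ?_ hne⟩
  rw [conj_pow, hy1]
  group

theorem card_Ut (hP : PD G p a b P) (hT : Nrm a T) (hb : b ≠ a) (h : (orbS T b).ncard = p) :
    Nat.card (classSub hP (orbEqv hT) hb) = p := by
  rw [← card_class hP (orbEqv hT) hb]
  have := rO_iff hT hb
  change Set.ncard {d | rO a T b d} = p
  rw [this, h]

theorem Ut_le (hp : p.Prime) (hP : PD G p a b P) (hT : Nrm a T) (hb : b ≠ a)
    (h : (orbS T b).ncard = p) : classSub hP (orbEqv hT) hb ≤ T := by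
  obtain ⟨u₀, hu₀, huP, hu1, huo⟩ := exists_u0 hp hP hT h
  have hmem : u₀ ∈ classSub hP (orbEqv hT) hb := by
    refine ⟨huP, hb, smul_ne_of_fix (hT.le _ hu₀) hb, u₀, hu₀, rfl⟩
  have hle : Subgroup.zpowers u₀ ≤ classSub hP (orbEqv hT) hb := by
    rw [Subgroup.zpowers_le]
    exact hmem
  have heq : Subgroup.zpowers u₀ = classSub hP (orbEqv hT) hb := by
    apply Subgroup.eq_of_le_of_card_ge hle
    rw [card_Ut hP hT hb h, Nat.card_zpowers, huo]
  rw [← heq, Subgroup.zpowers_le]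
  exact hu₀

/-- Every `T`-orbit contains a point fixed by `T_b`. -/
theorem fixed_in_orbit (hp : p.Prime) (hodd : p ≠ 2) (hP : PD G p a b P) (hb : b ≠ a)
    (hH : ¬ p ∣ Nat.card ↥(stabilizer G a ⊓ stabilizer G b)) (hT : Nrm a T)
    (horb : (orbS T b).ncard = p)
    (h2hom : ∀ c ∈ orbS T b, c ≠ b → ∀ d ∈ orbS T b, d ≠ b → ∃ t ∈ T, t • b = b ∧ t • c = d)
    {c : Ω} (hc : c ≠ a) : ∃ c' ∈ orbS T c, ∀ t ∈ T, t • b = b → t • c' = c' := by
  classical
  haveI : Fact p.Prime := ⟨hp⟩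
  set S : Subgroup G := T ⊓ stabilizer G b with hS
  have hSmem : ∀ t, t ∈ S ↔ t ∈ T ∧ t • b = b := by
    intro t
    rw [hS, Subgroup.mem_inf, mem_stabilizer_iff]
  have hSp : ¬ p ∣ Nat.card S := by
    intro hd
    apply hH
    refine hd.trans (Subgroup.card_dvd_of_le ?_)
    intro t ht
    obtain ⟨h1, h2⟩ := (hSmem t).1 ht
    exact Subgroup.mem_inf.2 ⟨hT.le t h1, h2⟩
  have hfinT : ∀ x : Ω, (orbS T x).Finite := by
    intro x
    have : (orbS T x) = (fun k : T => (k : G) • x) '' Set.univ := by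
      ext d
      simp only [orbS, Set.mem_setOf_eq, Set.image_univ, Set.mem_range, Subtype.exists,
        exists_prop]
    rw [this]
    exact Set.toFinite _
  have hne : (orbS T c).Nonempty := ⟨c, self_mem_orbS T c⟩
  obtain ⟨c₀, hc₀, hmin⟩ := Set.exists_min_image (orbS T c) (fun d => (orbS S d).ncard) (hfinT c) hne
  have hc₀a : c₀ ≠ a := by
    obtain ⟨k, hk, rfl⟩ := hc₀
    exact smul_ne_of_fix (hT.le k hk) hc
  have hST : ∀ x : Ω, orbS S x ⊆ orbS T x := by
    rintro x _ ⟨k, hk, rfl⟩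
    exact ⟨k, ((hSmem k).1 hk).1, rfl⟩
  have horb_eq : orbS T c₀ = orbS T c := orbS_eq hc₀
  have hcard_c : (orbS T c).ncard = p := orb_card hP hT hb horb hc
  set m := (orbS S c₀).ncard with hm
  have hsub0 : orbS S c₀ ⊆ orbS T c := by rw [← horb_eq]; exact hST c₀
  have hmle : m ≤ p := by
    rw [← hcard_c]
    exact Set.ncard_le_ncard hsub0 (hfinT c)
  have hmne : m ≠ p := by
    intro h
    apply hSp
    rw [card_orbS S c₀, ← hm, h]
    exact dvd_mul_right _ _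
  have hmlt : m < p := lt_of_le_of_ne hmle hmne
  obtain ⟨d, hd, hdn⟩ : ∃ d ∈ orbS T c, d ∉ orbS S c₀ := by
    apply Set.exists_mem_notMem_of_ncard_lt_ncard
    · rw [hcard_c]; exact hmlt
    · exact (hfinT c).subset hsub0
  have hdisj : Disjoint (orbS S c₀) (orbS S d) := by
    rw [Set.disjoint_left]
    intro e he he'
    apply hdn
    have h1 : orbS S e = orbS S c₀ := orbS_eq he
    have h2 : orbS S e = orbS S d := orbS_eq he'
    rw [← h1, h2]
    exact self_mem_orbS S d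
  have hsubd : orbS S d ⊆ orbS T c := by
    have : orbS T d = orbS T c := orbS_eq hd
    rw [← this]
    exact hST d
  have h2m : 2 * m ≤ p := by
    have h1 := hmin d hd
    have h3 : (orbS S c₀ ∪ orbS S d).ncard ≤ p := by
      rw [← hcard_c]
      exact Set.ncard_le_ncard (Set.union_subset hsub0 hsubd) (hfinT c)
    rw [Set.ncard_union_eq hdisj ((hfinT c).subset hsub0) ((hfinT c).subset hsubd)] at h3
    omega
  have hm2 : 2 * m ≤ p - 1 := by
    obtain ⟨t, ht⟩ := hp.odd_of_ne_two hodd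
    omega
  refine ⟨c₀, hc₀, ?_⟩
  -- setting up the design
  obtain ⟨v₀, hv₀, hv₀b⟩ := hP.trans c₀ hc₀a
  letI : Fintype P := Fintype.ofFinite _
  let A := ↥P
  have hcomm : ∀ x y : A, x * y = y * x := by
    intro x y
    exact Subtype.ext (hP.comm x x.2 y y.2)
  set Ut : Subgroup G := classSub hP (orbEqv hT) hb with hUt
  have hUtP : Ut ≤ P := fun v hv => hv.1
  have hUtT : Ut ≤ T := Ut_le hp hP hT hb horb
  have hUtmem : ∀ v ∈ P, (∃ k ∈ T, k • b = v • b) → v ∈ Ut := by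
    rintro v hv ⟨k, hk, hkb⟩
    refine ⟨hv, hb, ?_, k, hk, hkb⟩
    exact smul_ne_of_fix (hP.le hv) hb
  let U : Subgroup A := Ut.subgroupOf P
  have hUcard : Nat.card U = p := by
    rw [← card_Ut hP hT hb horb]
    exact Nat.card_congr (Subgroup.subgroupOfEquivOfLe hUtP).toEquiv
  have hUmem : ∀ v : A, v ∈ U ↔ (v : G) ∈ Ut := fun v => Iff.rfl
  let x : A := ⟨v₀, hv₀⟩
  let W : Finset A := Finset.univ.filter (fun w : A => (w : G) • b ∈ orbS S c₀)
  have hWmem : ∀ w : A, w ∈ W ↔ (w : G) • b ∈ orbS S c₀ := by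
    intro w
    simp [W]
  have hUn : U.Normal := by
    constructor
    intro n hn g
    rw [hcomm g n, mul_assoc, mul_inv_cancel, mul_one]
    exact hn
  have hidx : U.index = p := by
    have h1 := U.card_mul_index
    have h2 : Nat.card A = p ^ 2 := hP.card
    rw [hUcard, h2] at h1
    have h3 : p * U.index = p * p := by rw [h1]; ring
    exact Nat.eq_of_mul_eq_mul_left hp.pos h3
  have hWcard : W.card = m := by
    have himg : orbS S c₀ = (fun w : A => (w : G) • b) '' (W : Set A) := by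
      ext e
      simp only [Set.mem_image, Finset.mem_coe, hWmem]
      constructor
      · intro he
        have hea : e ≠ a := by
          obtain ⟨k, hk, rfl⟩ := he
          exact smul_ne_of_fix (hT.le k ((hSmem k).1 hk).1) hc₀a
        obtain ⟨w, hw, rfl⟩ := hP.trans e hea
        exact ⟨⟨w, hw⟩, he, rfl⟩
      · rintro ⟨w, hw, rfl⟩
        exact hw
    rw [hm, himg, Set.ncard_image_of_injective, Set.ncard_coe_finset]
    intro w w' h
    exact Subtype.ext (P_smul_inj hP hb w.2 w'.2 h)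
  have hmain : W.card = 1 := by
    refine main' hcomm hp hodd U hUcard x ?_ W ?_ ?_ (by rw [hWcard]; exact hm2) ?_
    · rw [← hidx]
      exact @Subgroup.pow_index_mem _ _ U hUn x
    · intro w hw
      rw [hWmem] at hw
      rw [hUmem]
      obtain ⟨s, hs, hsb⟩ := hw
      have hsT := ((hSmem s).1 hs).1
      have hv₀inv : v₀⁻¹ • a = a := hP.le (P.inv_mem hv₀)
      apply hUtmem _ (P.mul_mem (P.inv_mem hv₀) w.2)
      refine ⟨v₀⁻¹ * s * v₀⁻¹⁻¹, hT.conj v₀⁻¹ hv₀inv s hsT, ?_⟩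
      simp only [inv_inv, mul_smul, hv₀b, hsb]
    · refine ⟨x, ?_⟩
      rw [hWmem]
      show v₀ • b ∈ orbS S c₀
      rw [hv₀b]
      exact self_mem_orbS S c₀
    · intro y y' hy hy1 hy' hy'1
      rw [hUmem] at hy hy'
      have hyb : ∀ z : A, z ≠ 1 → (z : G) ∈ Ut → (z : G) • b ∈ orbS T b ∧ (z : G) • b ≠ b := by
        intro z hz hzU
        refine ⟨⟨z, hUtT hzU, rfl⟩, ?_⟩
        intro h
        apply hz
        exact Subtype.ext (hP.free _ z.2 b hb h)
      obtain ⟨τ, hτ, hτb, hτy⟩ := h2hom _ (hyb y hy1 hy).1 (hyb y hy1 hy).2 _ (hyb y' hy'1 hy').1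
        (hyb y' hy'1 hy').2
      have hτa : τ • a = a := hT.le τ hτ
      have hex : ∀ v : A, ∃ w : A, (w : G) • b = τ • ((v : G) • b) := by
        intro v
        have h1 : τ • ((v : G) • b) ≠ a :=
          smul_ne_of_fix hτa (smul_ne_of_fix (hP.le v.2) hb)
        obtain ⟨w, hw, hwb⟩ := hP.trans _ h1
        exact ⟨⟨w, hw⟩, hwb⟩
      choose f hf using hex
      have hinj : Function.Injective f := by
        intro v v' h
        have h1 := hf v
        rw [h, hf v'] at h1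
        exact Subtype.ext (P_smul_inj hP hb v.2 v'.2 (MulAction.injective τ h1).symm)
      let π : Equiv.Perm A := Equiv.ofBijective f (Finite.injective_iff_bijective.1 hinj)
      have hπ : ∀ v, π v = f v := fun v => rfl
      refine ⟨π, ?_, ?_, ?_⟩
      · rw [hπ]
        apply Subtype.ext
        apply P_smul_inj hP hb (f 1).2 P.one_mem
        rw [hf]
        simp [hτb]
      · rw [hπ]
        apply Subtype.ext
        apply P_smul_inj hP hb (f y).2 y'.2
        rw [hf, hτy]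
      · intro v v'
        rw [hπ, hπ, hWmem, hWmem]
        -- the element `ρ`
        let ρ : G := ((f v : A) : G)⁻¹ * τ * (v : G)
        have hvinv : ((v : A) : G)⁻¹ • a = a := hP.le (P.inv_mem v.2)
        have hu' : ((v : A) : G)⁻¹ * (f v : G) ∈ T := by
          apply hUtT
          apply hUtmem _ (P.mul_mem (P.inv_mem v.2) (f v).2)
          refine ⟨((v : A) : G)⁻¹ * τ * ((v : A) : G)⁻¹⁻¹, hT.conj _ hvinv τ hτ, ?_⟩
          simp only [inv_inv, mul_smul, hf]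
        have hρT : ρ ∈ T := by
          have h1 := hT.conj _ hvinv τ hτ
          rw [inv_inv] at h1
          have h2 := T.mul_mem (T.inv_mem hu') h1
          have h3 : ρ = (((v : A) : G)⁻¹ * (f v : G))⁻¹ * (((v : A) : G)⁻¹ * τ * (v : G)) := by
            simp only [ρ]
            group
          rw [h3]
          exact h2
        have hρb : ρ • b = b := by
          simp only [ρ, mul_smul]
          rw [← hf v, inv_smul_smul]
        have hρS : ρ ∈ S := (hSmem ρ).2 ⟨hρT, hρb⟩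
        have hρact : ρ • (((v⁻¹ * v' : A) : G) • b) =
            (((f v)⁻¹ * f v' : A) : G) • b := by
          have e1 : ((v⁻¹ * v' : A) : G) = (v : G)⁻¹ * (v' : G) := rfl
          have e2 : (((f v)⁻¹ * f v' : A) : G) = (f v : G)⁻¹ * (f v' : G) := rfl
          rw [e1, e2]
          simp only [ρ, mul_smul, smul_inv_smul]
          rw [hf v']
        rw [← hρact]
        constructor
        · rintro ⟨k, hk, hkb⟩
          refine ⟨ρ * k, S.mul_mem hρS hk, ?_⟩
          rw [mul_smul, hkb]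
        · rintro ⟨k, hk, hkb⟩
          refine ⟨ρ⁻¹ * k, S.mul_mem (S.inv_mem hρS) hk, ?_⟩
          rw [mul_smul, hkb, inv_smul_smul]
  have hm1 : m = 1 := by rw [← hWcard, hmain]
  intro t ht htb
  have htS : t ∈ S := (hSmem t).2 ⟨ht, htb⟩
  have h1 : t • c₀ ∈ orbS S c₀ := ⟨t, htS, rfl⟩
  have h2 : c₀ ∈ orbS S c₀ := self_mem_orbS S c₀
  have hfin : (orbS S c₀).Finite := (hfinT c₀).subset (hST c₀)
  exact (Set.ncard_le_one_iff hfin).1 (le_of_eq hm1) h1 h2

/-- Conjugating the stabiliser. -/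
theorem card_S (hT : Nrm a T) {g : G} (hg : g • a = a) (c : Ω) :
    Nat.card ↥(T ⊓ stabilizer G (g • c)) = Nat.card ↥(T ⊓ stabilizer G c) := by
  apply Nat.card_congr
  refine ⟨fun x => ⟨g⁻¹ * x.1 * g, ?_⟩, fun x => ⟨g * x.1 * g⁻¹, (stab_conj hT hg).1 x.2⟩, ?_, ?_⟩
  · rw [stab_conj hT hg]
    have : g * (g⁻¹ * x.1 * g) * g⁻¹ = x.1 := by group
    rw [this]
    exact x.2
  · intro x
    apply Subtype.ext
    simp [mul_assoc]
  · intro x
    apply Subtype.ext
    simp [mul_assoc]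

theorem S_eq (hP : PD G p a b P) (hT : Nrm a T) (hb : b ≠ a) {x y : Ω} (hx : x ≠ a) (hy : y ≠ a)
    (hfix : ∀ t ∈ T, t • x = x → t • y = y) :
    T ⊓ stabilizer G x = T ⊓ stabilizer G y := by
  apply Subgroup.eq_of_le_of_card_ge
  · intro t ht
    obtain ⟨h1, h2⟩ := Subgroup.mem_inf.1 ht
    exact Subgroup.mem_inf.2 ⟨h1, hfix t h1 h2⟩
  · obtain ⟨v, hv, rfl⟩ := hP.trans x hx
    obtain ⟨w, hw, rfl⟩ := hP.trans y hy
    rw [card_S hT (hP.le hv) b, card_S hT (hP.le hw) b]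

theorem h2hom_at (hP : PD G p a b P) (hT : Nrm a T)
    (h2hom : ∀ c ∈ orbS T b, c ≠ b → ∀ d ∈ orbS T b, d ≠ b → ∃ t ∈ T, t • b = b ∧ t • c = d)
    {c : Ω} (hc : c ≠ a) {d e : Ω} (hd : d ∈ orbS T c) (hdc : d ≠ c) (he : e ∈ orbS T c)
    (hec : e ≠ c) : ∃ t ∈ T, t • c = c ∧ t • d = e := by
  obtain ⟨v, hv, rfl⟩ := hP.trans c hc
  have hva : v • a = a := hP.le hv
  have hvinv : v⁻¹ • a = a := hP.le (P.inv_mem hv)
  have key : ∀ f, f ∈ orbS T (v • b) → f ≠ v • b → v⁻¹ • f ∈ orbS T b ∧ v⁻¹ • f ≠ b := by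
    rintro _ ⟨k, hk, rfl⟩ hf
    refine ⟨⟨v⁻¹ * k * v⁻¹⁻¹, hT.conj _ hvinv k hk, ?_⟩, ?_⟩
    · simp only [inv_inv, mul_smul, smul_inv_smul]
    · intro h
      apply hf
      have h3 := congrArg (fun z => v • z) h
      simpa only [smul_inv_smul] using h3
  obtain ⟨t, ht, htb, htd⟩ := h2hom _ (key d hd hdc).1 (key d hd hdc).2 _ (key e he hec).1
    (key e he hec).2
  refine ⟨v * t * v⁻¹, hT.conj v hva t ht, ?_, ?_⟩
  · simp only [mul_smul, inv_smul_smul, htb]
  · simp only [mul_smul]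
    rw [htd, smul_inv_smul]

theorem unique_fixed [Fintype Ω] (hp3 : 3 ≤ p) (hP : PD G p a b P) (hT : Nrm a T) (hb : b ≠ a)
    (horb : (orbS T b).ncard = p)
    (h2hom : ∀ c ∈ orbS T b, c ≠ b → ∀ d ∈ orbS T b, d ≠ b → ∃ t ∈ T, t • b = b ∧ t • c = d)
    {c d : Ω} (hc : c ≠ a) (hd : d ∈ orbS T c) (hfix : ∀ t ∈ T, t • c = c → t • d = d) : d = c := by
  classical
  by_contra hdc
  obtain ⟨e, he, hen⟩ : ∃ e ∈ orbS T c, e ∉ ({c, d} : Set Ω) := by
    apply Set.exists_mem_notMem_of_ncard_lt_ncard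
    · rw [orb_card hP hT hb horb hc]
      have := Set.ncard_insert_le c ({d} : Set Ω)
      rw [Set.ncard_singleton] at this
      omega
    · exact Set.toFinite _
  simp only [Set.mem_insert_iff, Set.mem_singleton_iff, not_or] at hen
  obtain ⟨t, ht, htc, htd⟩ := h2hom_at hP hT h2hom hc hd hdc he hen.1
  rw [hfix t ht htc] at htd
  exact hen.2 htd.symm

theorem iff_of_imp [Fintype Ω] {T₁ T₂ : Ω → Ω → Ω → Prop} (S₁ : Sys G p T₁) (S₂ : Sys G p T₂)
    (hab : a ≠ b) (hi : ∀ c, c ≠ a → c ≠ b → T₁ b a c → T₂ a b c) :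
    ∀ c, c ≠ a → c ≠ b → (T₂ a b c ↔ T₁ b a c) := by
  classical
  have hX : ({z | T₁ b a z} \ {a} : Set Ω).ncard = p - 1 := by
    have hm : a ∈ {z | T₁ b a z} := S₁.refl hab
    rw [Set.ncard_diff_singleton_of_mem hm, S₁.card hab]
  have hY : ({z | T₂ a b z} \ {b} : Set Ω).ncard = p - 1 := by
    have hm : b ∈ {z | T₂ a b z} := S₂.refl hab.symm
    rw [Set.ncard_diff_singleton_of_mem hm, S₂.card hab.symm]
  have hsub : ({z | T₁ b a z} \ {a} : Set Ω) ⊆ ({z | T₂ a b z} \ {b} : Set Ω) := by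
    rintro c ⟨hc, hca⟩
    have hcb : c ≠ b := (S₁.ne hc).2
    exact ⟨hi c hca hcb hc, hcb⟩
  have heq := Set.eq_of_subset_of_ncard_le hsub (by rw [hX, hY])
  intro c hca hcb
  constructor
  · intro h
    have h1 : c ∈ ({z | T₂ a b z} \ {b} : Set Ω) := ⟨h, hcb⟩
    rw [← heq] at h1
    exact h1.1
  · exact hi c hca hcb

theorem Sys.inv_iff {T₁ : Ω → Ω → Ω → Prop} (S : Sys G p T₁) (g : G) {x y z : Ω} :
    T₁ (g • x) (g • y) (g • z) ↔ T₁ x y z := by
  constructor
  · intro h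
    have := S.inv g⁻¹ h
    simpa only [inv_smul_smul] using this
  · exact S.inv g

/-- Main theorem of the `T`-case. -/
theorem tcase [Fintype Ω] [FaithfulSMul G Ω] (hp : p.Prime) (hodd : p ≠ 2)
    (hΩ : Fintype.card Ω = p ^ 2 + 1)
    (h2 : ∀ {u v u' v' : Ω}, u ≠ v → u' ≠ v' → ∃ g : G, g • u = u' ∧ g • v = v') (hab : a ≠ b)
    (hP : PD G p a b P)
    (hH : ¬ p ∣ Nat.card ↥(stabilizer G a ⊓ stabilizer G b)) (hT : Nrm a T)
    (horb : (orbS T b).ncard = p)
    (h2hom : ∀ c ∈ orbS T b, c ≠ b → ∀ d ∈ orbS T b, d ≠ b → ∃ t ∈ T, t • b = b ∧ t • c = d) :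
    False := by
  classical
  have hb : b ≠ a := hab.symm
  have hp3 : 3 ≤ p := by
    have := hp.two_le
    omega
  obtain ⟨u₀, hu₀T, hu₀P, hu₀1, hu₀o⟩ := exists_u0 hp hP hT horb
  have hu₀a : u₀ • a = a := hT.le _ hu₀T
  have hub : u₀ • b ≠ b := fun h => hu₀1 (hP.free _ hu₀P b hb h)
  have hubT : u₀ • b ∈ orbS T b := ⟨u₀, hu₀T, rfl⟩
  have huba : u₀ • b ≠ a := smul_ne_of_fix hu₀a hb
  have htr : ∀ x : Ω, ∃ g : G, g • a = x := by
    intro x
    by_cases hx : x = a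
    · exact ⟨1, by rw [hx, one_smul]⟩
    · obtain ⟨g, hg1, _⟩ := h2 hab hx
      exact ⟨g, hg1⟩
  have E₁ := orbEqv hT
  have E₂ := stabEqv hT
  set r₁ : Ω → Ω → Prop := fun c d => c ≠ a ∧ d ≠ a ∧ ∃ k ∈ T, k • c = d with hr₁
  set r₂ : Ω → Ω → Prop := fun c d => c ≠ a ∧ d ≠ a ∧ T ⊓ stabilizer G c = T ⊓ stabilizer G d
    with hr₂
  have hset₁ : {d | r₁ b d} = orbS T b := rO_iff hT hb
  have hcomplc : ({a}ᶜ : Set Ω).ncard = p ^ 2 := by
    rw [Set.ncard_compl, Set.ncard_singleton, Nat.card_eq_fintype_card, hΩ]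
    omega
  have hbig : p < p ^ 2 := by nlinarith
  have hr₂fix : ∀ {d : Ω}, d ≠ a → (∀ t ∈ T, t • b = b → t • d = d) → r₂ b d := by
    intro d hd hf
    exact ⟨hb, hd, S_eq hP hT hb hb hd hf⟩
  have hr₂fix' : ∀ {d : Ω}, r₂ b d → ∀ t ∈ T, t • b = b → t • d = d := by
    intro d hd t ht htb
    have h1 : t ∈ T ⊓ stabilizer G b := Subgroup.mem_inf.2 ⟨ht, htb⟩
    rw [hd.2.2] at h1
    exact (Subgroup.mem_inf.1 h1).2
  have hdisj : ∀ {d : Ω}, d ∈ orbS T b → r₂ b d → d = b := by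
    intro d hd hd2
    exact unique_fixed hp3 hP hT hb horb h2hom hb hd (hr₂fix' hd2)
  have hsz₂ : Set.ncard {d | r₂ b d} = p := by
    rcases class_size hp hP E₂ hb with h1 | h1 | h1
    · exfalso
      obtain ⟨c, hc, hcn⟩ : ∃ c ∈ ({a}ᶜ : Set Ω), c ∉ orbS T b := by
        apply Set.exists_mem_notMem_of_ncard_lt_ncard
        · rw [horb, hcomplc]; exact hbig
        · exact Set.toFinite _
      have hca : c ≠ a := hc
      obtain ⟨c', hc', hfix⟩ := fixed_in_orbit hp hodd hP hb hH hT horb h2hom hca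
      have hc'a : c' ≠ a := by
        obtain ⟨k, hk, rfl⟩ := hc'
        exact smul_ne_of_fix (hT.le k hk) hca
      have hm1 : c' ∈ {d | r₂ b d} := hr₂fix hc'a hfix
      have hm2 : b ∈ {d | r₂ b d} := E₂.refl hb
      have h3 := (Set.ncard_le_one_iff (Set.toFinite {d | r₂ b d})).1 (le_of_eq h1) hm1 hm2
      apply hcn
      rw [h3] at hc'
      exact orbS_symm hc'
    · exact h1
    · exfalso
      have hsub : {d | r₂ b d} ⊆ {a}ᶜ := fun d hd => (E₂.ne hd).2
      have heq := Set.eq_of_subset_of_ncard_le hsub (by rw [hcomplc, h1])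
      have hm : u₀ • b ∈ {d | r₂ b d} := by
        rw [heq]
        exact huba
      exact hub (hdisj hubT hm)
  have B₁ : Base G p a r₁ := Eqv.base hP E₁ (by rw [hset₁, horb])
  have B₂ : Base G p a r₂ := Eqv.base hP E₂ hsz₂
  have S₁ := B₁.sys htr
  have S₂ := B₂.sys htr
  set A := lift G a r₁ with hA
  set C := lift G a r₂ with hC
  have hAa : ∀ y z, A a y z ↔ r₁ y z := lift_base B₁
  have hCa : ∀ y z, C a y z ↔ r₂ y z := lift_base B₂
  obtain ⟨t, ht1, ht2⟩ := h2 hab hab.symm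
  have htinv : t⁻¹ • a = b := by rw [inv_smul_eq_iff, ht2]
  have htinv2 : t⁻¹ • b = a := by rw [inv_smul_eq_iff, ht1]
  set c₀ := t • (u₀ • b) with hc₀
  have hc₀A : A b a c₀ := by
    have h1 : A a b (u₀ • b) := (hAa _ _).2 ⟨hb, huba, u₀, hu₀T, rfl⟩
    have h3 := S₁.inv t h1
    rwa [ht1, ht2] at h3
  have hc₀a : c₀ ≠ a := by
    intro h
    apply hub
    have h3 : t • (u₀ • b) = t • b := by rw [ht2]; exact h
    exact MulAction.injective t h3
  have hc₀b : c₀ ≠ b := (S₁.ne hc₀A).2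
  -- the transitivity of `H`
  have hHtr : ∀ d, A b a d → d ≠ a → ∃ h : G, h • a = a ∧ h • b = b ∧ h • c₀ = d := by
    intro d hd hda
    have h1 : A a b (t⁻¹ • d) := by
      have h3 := S₁.inv t⁻¹ hd
      rwa [htinv, htinv2] at h3
    rw [hAa] at h1
    have h3 : t⁻¹ • d ∈ orbS T b := by rw [← hset₁]; exact h1
    have h4 : t⁻¹ • d ≠ b := by
      intro h
      apply hda
      rw [inv_smul_eq_iff, ht2] at h
      exact h
    obtain ⟨s, hs, hsb, hsu⟩ := h2hom _ hubT hub _ h3 h4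
    have hsa : s • a = a := hT.le s hs
    refine ⟨t * s * t⁻¹, ?_, ?_, ?_⟩
    · simp only [mul_smul, htinv, hsb, ht2]
    · simp only [mul_smul, htinv2, hsa, ht1]
    · simp only [mul_smul, hc₀, inv_smul_smul, hsu, smul_inv_smul]
  have hAH : ∀ (h : G), h • a = a → h • b = b → ∀ {d}, A b a d → A b a (h • d) := by
    intro h h1 h3 d hd
    have := S₁.inv h hd
    rwa [h1, h3] at this
  by_cases hc1 : r₁ b c₀
  · -- Case 1
    have hi : ∀ c, c ≠ a → c ≠ b → A b a c → A a b c := by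
      intro c hca hcb hT'
      obtain ⟨h, h1, h3, rfl⟩ := hHtr c hT' hca
      rw [hAa]
      have := E₁.inv h h1 hc1
      rwa [h3] at this
    exact S₁.false_of_symm hp.two_le hΩ h2 hab (symm_of_imp S₁ hab hi)
  by_cases hc2 : r₂ b c₀
  · -- Case 2
    have hi : ∀ c, c ≠ a → c ≠ b → A b a c → C a b c := by
      intro c hca hcb hT'
      obtain ⟨h, h1, h3, rfl⟩ := hHtr c hT' hca
      rw [hCa]
      have := E₂.inv h h1 hc2
      rwa [h3] at this
    have hbase := iff_of_imp S₁ S₂ hab hi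
    have hglob : ∀ {x y d : Ω}, x ≠ y → d ≠ x → d ≠ y → (C x y d ↔ A y x d) := by
      intro x y d hxy hdx hdy
      obtain ⟨g, rfl, rfl⟩ := h2 hab hxy
      have h3 : g⁻¹ • d ≠ a := by
        intro h; apply hdx; rw [← h, smul_inv_smul]
      have h4 : g⁻¹ • d ≠ b := by
        intro h; apply hdy; rw [← h, smul_inv_smul]
      have h5 := hbase _ h3 h4
      have e : d = g • (g⁻¹ • d) := (smul_inv_smul _ _).symm
      rw [e, Sys.inv_iff S₂, Sys.inv_iff S₁]
      exact h5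
    have hchain : ∀ c, c ≠ a → c ≠ b → A a b c → C a b c := by
      intro c hca hcb h
      have h1 : C b a c := (hglob hb hcb hca).2 h
      have h3 : C b c a := S₂.symm h1
      have h4 : A c b a := (hglob hcb.symm hab hca.symm).1 h3
      have h5 : A c a b := S₁.symm h4
      have h6 : C a c b := (hglob hca.symm hb hcb.symm).2 h5
      exact S₂.symm h6
    have h1 : C a b (u₀ • b) := hchain _ huba hub ((hAa _ _).2 ⟨hb, huba, u₀, hu₀T, rfl⟩)
    rw [hCa] at h1
    exact hub (hdisj hubT h1)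
  · -- Case 3
    obtain ⟨c', hc', hfix⟩ := fixed_in_orbit hp hodd hP hb hH hT horb h2hom hc₀a
    have hc'a : c' ≠ a := by
      obtain ⟨k, hk, rfl⟩ := hc'
      exact smul_ne_of_fix (hT.le k hk) hc₀a
    have hr₂c' : r₂ b c' := hr₂fix hc'a hfix
    have hc'c₀ : c' ≠ c₀ := by
      rintro rfl
      exact hc2 hr₂c'
    have hc'b : c' ≠ b := by
      rintro rfl
      apply hc1
      have h3 := orbS_symm hc'
      rw [← hset₁] at h3
      exact h3
    have hc₀m : c₀ ∈ orbS T c' := orbS_symm hc'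
    have horbc' : orbS T c₀ = orbS T c' := orbS_eq hc₀m
    set X : Set Ω := {z | A b a z} \ {a} with hX
    set Y : Set Ω := orbS T c' \ {c'} with hY
    have hXc : X.ncard = p - 1 := by
      have hm : a ∈ {z | A b a z} := S₁.refl hab
      rw [hX, Set.ncard_diff_singleton_of_mem hm, S₁.card hab]
    have hYc : Y.ncard = p - 1 := by
      rw [hY, Set.ncard_diff_singleton_of_mem (self_mem_orbS T c'), orb_card hP hT hb horb hc'a]
    have hYX : Y ⊆ X := by
      rintro e ⟨he, hne⟩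
      obtain ⟨s, hs, hsc', hsc₀⟩ := h2hom_at hP hT h2hom hc'a hc₀m hc'c₀.symm he hne
      have hsb : s • b = b := by
        have h3 : s ∈ T ⊓ stabilizer G c' := Subgroup.mem_inf.2 ⟨hs, hsc'⟩
        rw [← hr₂c'.2.2] at h3
        exact (Subgroup.mem_inf.1 h3).2
      have hsa : s • a = a := hT.le s hs
      have h3 : A b a e := by
        rw [← hsc₀]
        exact hAH s hsa hsb hc₀A
      have h4 : e ≠ a := by
        obtain ⟨k, hk, rfl⟩ := he
        exact smul_ne_of_fix (hT.le k hk) hc'a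
      exact ⟨h3, h4⟩
    have hYeq : Y = X := Set.eq_of_subset_of_ncard_le hYX (by rw [hXc, hYc])
    have hXH : ∀ (h : G), h • a = a → h • b = b → ∀ {d}, d ∈ X → h • d ∈ X := by
      rintro h h1 h3 d ⟨hd, hda⟩
      exact ⟨hAH h h1 h3 hd, smul_ne_of_fix h1 hda⟩
    have hc₀X : c₀ ∈ X := ⟨hc₀A, hc₀a⟩
    have hHfix : ∀ h ∈ stabilizer G a ⊓ stabilizer G b, h • c' = c' := by
      intro h hh
      have h1 : h • a = a := (Subgroup.mem_inf.1 hh).1
      have h3 : h • b = b := (Subgroup.mem_inf.1 hh).2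
      by_contra hne
      have h4 : h • c₀ ∈ Y := by rw [hYeq]; exact hXH h h1 h3 hc₀X
      have h5 : h • c' ∈ orbS T c' := by
        obtain ⟨k, hk, hkc⟩ := hc₀m
        have h6 : h • c₀ ∈ orbS T c' := h4.1
        obtain ⟨k', hk', hk'c⟩ := h6
        refine ⟨(h * k⁻¹ * h⁻¹) * k', T.mul_mem (hT.conj h h1 _ (T.inv_mem hk)) hk', ?_⟩
        rw [mul_smul, hk'c]
        simp only [mul_smul, inv_smul_smul]
        rw [← hkc, inv_smul_smul]
      have h6 : h • c' ∈ Y := ⟨h5, hne⟩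
      rw [hYeq] at h6
      have hinv1 : h⁻¹ • a = a := by rw [inv_smul_eq_iff, h1]
      have hinv2 : h⁻¹ • b = b := by rw [inv_smul_eq_iff, h3]
      have h7 := hXH h⁻¹ hinv1 hinv2 h6
      rw [inv_smul_smul] at h7
      rw [← hYeq] at h7
      exact h7.2 rfl
    rcases fix_H hp hodd hΩ h2 hab hP hHfix with h1 | h1
    · exact hc'a h1
    · exact hc'b h1

end

end Cfsg.Agent.Lib.DPrimT
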