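import Mathlib
import Cfsg.Agent.Lib.DPrimT
import Cfsg.Agent.Lib.PrimeDeg2

set_option autoImplicit false

namespace Cfsg.Agent.Lib.DPrimN

open MulAction Cfsg.Agent.Lib.DPrimA Cfsg.Agent.Lib.DPrimB Cfsg.Agent.Lib.DPrimK
  Cfsg.Agent.Lib.DPrimT

open scoped IsMulCommutative in
/-- Transfer into an abelian subgroup of index prime to `p`. -/
theorem transfer_kill {C : Type*} [Group C] [Finite C] {p : ℕ} (hp : p.Prime) (P : Subgroup C)
    (hcomm : ∀ x ∈ P, ∀ y ∈ P, x * y = y * x) {n : ℕ} (hcard : Nat.card P = p ^ n) :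
    ∃ N : Subgroup C, (∀ c : C, ¬ p ∣ orderOf c → c ∈ N) ∧
      (∀ z ∈ P, (∀ g, g * z = z * g) → z ∈ N → z ^ P.index = 1) := by
  haveI : IsMulCommutative P := ⟨⟨fun x y => Subtype.ext (hcomm x x.2 y y.2)⟩⟩
  haveI : P.FiniteIndex := inferInstance
  let τ : C →* P := MonoidHom.transfer (MonoidHom.id P)
  refine ⟨τ.ker, ?_, ?_⟩
  · intro c hc
    rw [MonoidHom.mem_ker]
    have h1 : τ c ^ orderOf c = 1 := by
      rw [← map_pow, pow_orderOf_eq_one, map_one]
    have h2 : τ c ^ (p ^ n) = 1 := by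
      have := pow_card_eq_one' (x := τ c)
      rwa [hcard] at this
    have hco : Nat.Coprime (orderOf c) (p ^ n) := by
      apply Nat.Coprime.pow_right
      apply Nat.Coprime.symm
      rwa [Nat.Prime.coprime_iff_not_dvd hp]
    have h3 := pow_gcd_eq_one.2 ⟨h1, h2⟩
    rwa [hco, pow_one] at h3
  · intro z hz hcen hzN
    rw [MonoidHom.mem_ker] at hzN
    have key : ∀ (k : ℕ) (g₀ : C), g₀⁻¹ * z ^ k * g₀ ∈ P → g₀⁻¹ * z ^ k * g₀ = z ^ k := by
      intro k g₀ _
      have h1 : z ^ k * g₀ = g₀ * z ^ k := by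
        have : Commute z g₀ := (hcen g₀).symm
        exact (this.pow_left k)
      rw [mul_assoc, h1, inv_mul_cancel_left]
    have h1 := MonoidHom.transfer_eq_pow (MonoidHom.id P) z key
    have h2 : τ z = MonoidHom.transfer (MonoidHom.id P) z := rfl
    rw [h2, h1] at hzN
    exact congrArg Subtype.val hzN

section Burn

variable {G Ω : Type*} [Group G] [MulAction G Ω] {p : ℕ}

/-- Burnside's dichotomy in a convenient form. -/
theorem burn [Finite G] [hpf : Fact p.Prime] {K : Subgroup G} {σ : G} (hσ : σ ∈ K) (b : Ω)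
    (hσp : σ ^ p = 1) (hb : σ • b ≠ b) (hΔ : ∀ k ∈ K, ∃ i : ℕ, k • b = σ ^ i • b) :
    (∀ g ∈ K, (∃ k : ℕ, g ^ (p ^ k) = 1) → ∃ i : ℕ, ∀ c ∈ orbS K b, g • c = σ ^ i • c) ∨
    (∀ c ∈ orbS K b, c ≠ b → ∀ d ∈ orbS K b, d ≠ b → ∃ g ∈ K, g • b = b ∧ g • c = d) := by
  classical
  have hp := hpf.out
  -- the orbit as a `K`-set
  let X : SubMulAction K Ω :=
    { carrier := orbS K b
      smul_mem' := by
        rintro k _ ⟨k', hk', rfl⟩
        exact ⟨k * k', K.mul_mem k.2 hk', mul_smul _ _ _⟩ }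
  have hXmem : ∀ c, c ∈ X ↔ c ∈ orbS K b := fun c => Iff.rfl
  have hpowmod : ∀ n : ℕ, σ ^ n = σ ^ (n % p) := by
    intro n
    conv_lhs => rw [← Nat.div_add_mod n p, pow_add, pow_mul, hσp, one_pow, one_mul]
  let e₀ : ZMod p → X := fun i => ⟨σ ^ i.val • b, ⟨σ ^ i.val, K.pow_mem hσ _, rfl⟩⟩
  have he₀ : ∀ i, ((e₀ i : X) : Ω) = σ ^ i.val • b := fun i => rfl
  have he₀nat : ∀ n : ℕ, ((e₀ (n : ZMod p) : X) : Ω) = σ ^ n • b := by
    intro n
    rw [he₀, ZMod.val_natCast, ← hpowmod]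
  have hfix : ∀ d : ℕ, 0 < d → d < p → σ ^ d • b ≠ b := by
    intro d hd hdp h
    have hco : Nat.Coprime d p := by
      apply Nat.Coprime.symm
      rw [Nat.Prime.coprime_iff_not_dvd hp]
      intro hdvd
      exact absurd (Nat.le_of_dvd hd hdvd) (by omega)
    obtain ⟨m, hm⟩ := Nat.exists_mul_mod_eq_one_of_coprime hco hp.one_lt
    have h1 : σ = (σ ^ d) ^ m := by
      rw [← pow_mul]
      conv_rhs => rw [hpowmod, hm.2, pow_one]
    have h2 : (σ ^ d) ^ m ∈ stabilizer G b :=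
      Subgroup.pow_mem _ (mem_stabilizer_iff.2 h) m
    apply hb
    rw [h1]
    exact h2
  have hinj : Function.Injective e₀ := by
    have key : ∀ i j : ZMod p, i.val ≤ j.val → (e₀ i : Ω) = (e₀ j : Ω) → i = j := by
      intro i j hij h
      rw [he₀, he₀] at h
      by_contra hne
      have hlt : i.val < j.val := by
        apply lt_of_le_of_ne hij
        intro h3
        exact hne (ZMod.val_injective p h3)
      have hj : j.val < p := ZMod.val_lt j
      have h3 : σ ^ (j.val - i.val) • b = b := by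
        have h4 : σ ^ j.val = σ ^ i.val * σ ^ (j.val - i.val) := by
          rw [← pow_add]
          congr 1
          omega
        rw [h4, mul_smul] at h
        exact (MulAction.injective _ h).symm
      exact hfix _ (by omega) (by omega) h3
    intro i j h
    have h' : (e₀ i : Ω) = (e₀ j : Ω) := congrArg Subtype.val h
    rcases le_total i.val j.val with h1 | h1
    · exact key i j h1 h'
    · exact (key j i h1 h'.symm).symm
  have hsurj : Function.Surjective e₀ := by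
    rintro ⟨_, ⟨k, hk, rfl⟩⟩
    obtain ⟨n, hn⟩ := hΔ k hk
    refine ⟨(n : ZMod p), Subtype.ext ?_⟩
    rw [he₀nat]
    exact hn.symm
  let e : ZMod p ≃ X := Equiv.ofBijective e₀ ⟨hinj, hsurj⟩
  have hecoe : ∀ i, ((e i : X) : Ω) = σ ^ i.val • b := fun i => rfl
  letI : Fintype X := Fintype.ofEquiv (ZMod p) e
  have hXc : Fintype.card X = p := by
    rw [← Fintype.card_congr e, ZMod.card]
  -- the permutation group
  let φ : K →* Equiv.Perm X := MulAction.toPermHom K X
  let L : Subgroup (Equiv.Perm X) := φ.range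
  have hφ : ∀ (k : K) (x : X), ((φ k x : X) : Ω) = (k : G) • (x : Ω) := fun k x => rfl
  haveI : FaithfulSMul L X := ⟨fun {x y} h => Subtype.ext (Equiv.ext h)⟩
  have hmemL : ∀ k : K, φ k ∈ L := fun k => ⟨k, rfl⟩
  have hLact : ∀ (k : K) (x : X), ((⟨φ k, hmemL k⟩ : L) • x : X) = φ k x := fun k x => rfl
  haveI : IsPretransitive L X := by
    constructor
    rintro ⟨_, ⟨k, hk, rfl⟩⟩ ⟨_, ⟨k', hk', rfl⟩⟩
    let g : K := ⟨k', hk'⟩ * ⟨k, hk⟩⁻¹
    refine ⟨⟨φ g, hmemL g⟩, ?_⟩
    apply Subtype.ext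
    rw [hLact, hφ]
    show (k' * k⁻¹) • (k • b) = k' • b
    rw [mul_smul, inv_smul_smul]
  let σ' : L := ⟨φ ⟨σ, hσ⟩, hmemL _⟩
  have he : ∀ i, e (i + 1) = σ' • e i := by
    intro i
    apply Subtype.ext
    rw [hLact, hφ, hecoe, hecoe]
    show σ ^ (i + 1).val • b = σ • σ ^ i.val • b
    have hval : (i + 1).val = (i.val + 1) % p := by
      rw [ZMod.val_add, ZMod.val_one_eq_one_mod]
      rcases Nat.lt_or_ge 1 p with h | h
      · rw [Nat.mod_eq_of_lt h]
      · exact absurd hp.one_lt (by omega)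
    rw [hval, ← hpowmod, pow_succ', mul_smul]
  -- translation powers
  have hetrans : ∀ (n : ℕ) (x : ZMod p), σ ^ n • ((e x : X) : Ω) = ((e (x + n) : X) : Ω) := by
    intro n
    induction n with
    | zero => intro x; simp
    | succ n ih =>
      intro x
      have h1 := he (x + n)
      have h2 : ((e (x + n + 1) : X) : Ω) = σ • ((e (x + n) : X) : Ω) := by
        rw [h1, hLact, hφ]
      rw [pow_succ', mul_smul, ih, Nat.cast_succ, ← add_assoc, h2]
  rcases Cfsg.Agent.Lib.PrimeDeg.affine_or_two_trans (G := L) (X := X) (p := p) hXc σ' e he with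
    hA | hA
  · left
    rintro g hg ⟨k, hk⟩
    obtain ⟨α, β, hαβ⟩ := hA ⟨φ ⟨g, hg⟩, hmemL _⟩
    have hact : ∀ x, g • ((e x : X) : Ω) = ((e (α * x + β) : X) : Ω) := by
      intro x
      have h1 := hαβ x
      rw [Equiv.symm_apply_eq] at h1
      rw [← h1, hLact, hφ]
    have hiter : ∀ n : ℕ, ∃ c : ZMod p, ∀ x, g ^ n • ((e x : X) : Ω) = ((e (α ^ n * x + c) : X) : Ω) := by
      intro n
      induction n with
      | zero =>
        refine ⟨0, fun x => ?_⟩
        simp
      | succ n ih =>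
        obtain ⟨c, hc⟩ := ih
        refine ⟨α * c + β, fun x => ?_⟩
        rw [pow_succ', mul_smul, hc, hact]
        have h3 : α * (α ^ n * x + c) + β = α ^ (n + 1) * x + (α * c + β) := by ring
        rw [h3]
    obtain ⟨c, hc⟩ := hiter (p ^ k)
    rw [hk] at hc
    simp only [one_smul] at hc
    have hcinj : ∀ x, x = α ^ (p ^ k) * x + c := by
      intro x
      have := hc x
      exact e.injective (Subtype.ext this)
    have hc0 : c = 0 := by
      have := hcinj 0
      simpa using this.symm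
    have hα1 : α = 1 := by
      have h1 := hcinj 1
      rw [hc0, mul_one, add_zero, ZMod.pow_card_pow] at h1
      exact h1.symm
    refine ⟨β.val, ?_⟩
    rintro _ ⟨k', hk', rfl⟩
    have hx : ∃ x, ((e x : X) : Ω) = k' • b := by
      obtain ⟨x, hx⟩ := e.surjective ⟨k' • b, ⟨k', hk', rfl⟩⟩
      exact ⟨x, congrArg Subtype.val hx⟩
    obtain ⟨x, hx⟩ := hx
    rw [← hx, hact, hα1, one_mul, hetrans, ZMod.natCast_zmod_val]
  · right
    rw [is_two_pretransitive_iff] at hA
    intro c hc hcb d hd hdb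
    let x₀ : X := ⟨b, ⟨1, K.one_mem, one_smul _ _⟩⟩
    let x₁ : X := ⟨c, hc⟩
    let x₂ : X := ⟨d, hd⟩
    obtain ⟨g', hg1, hg2⟩ := @hA x₀ x₁ x₀ x₂ (fun h => hcb (congrArg Subtype.val h).symm)
      (fun h => hdb (congrArg Subtype.val h).symm)
    obtain ⟨g'', hg''⟩ := g'
    obtain ⟨k, rfl⟩ := hg''
    refine ⟨k, k.2, ?_, ?_⟩
    · exact congrArg Subtype.val hg1
    · exact congrArg Subtype.val hg2

end Burn

end Cfsg.Agent.Lib.DPrimN
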