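import Mathlib
import Cfsg.Agent.Lib.DPrimN

set_option autoImplicit false

namespace Cfsg.Agent.Lib.DPrimN2

open MulAction Cfsg.Agent.Lib.DPrimA Cfsg.Agent.Lib.DPrimB Cfsg.Agent.Lib.DPrimK
  Cfsg.Agent.Lib.DPrimT Cfsg.Agent.Lib.DPrimN

variable {G Ω : Type*} [Group G] [MulAction G Ω]
  {p : ℕ} {a b : Ω} {P : Subgroup G}

/-- `p`-elements of `G_a` fixing another point are trivial. -/
theorem pelt_fix (hP : PD G p a b P) {y : G} (hya : y • a = a) {k : ℕ} (hk : y ^ (p ^ k) = 1) {c : Ω}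
    (hc : c ≠ a) (hyc : y • c = c) : y = 1 := by
  obtain ⟨g, hg, hgy⟩ := hP.syl y hya ⟨k, hk⟩
  have h1 : (g * y * g⁻¹) • (g • c) = g • c := by
    simp only [mul_smul, inv_smul_smul, hyc]
  have h2 := hP.free _ hgy _ (smul_ne_of_fix hg hc) h1
  exact conj_eq_one_iff.1 h2

section Gen

variable [Finite G]

theorem gen_of_card {U : Subgroup G} (hU : Nat.card U = p) (hp : p.Prime) {σ : G} (hσ : σ ∈ U)
    (hσ1 : σ ≠ 1) : orderOf σ = p ∧ ∀ v ∈ U, ∃ i : ℕ, v = σ ^ i := by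
  haveI : Fact p.Prime := ⟨hp⟩
  have hpow : σ ^ p = 1 := by
    have := pow_card_eq_one' (x := (⟨σ, hσ⟩ : U))
    rw [hU] at this
    exact congrArg Subtype.val this
  have ho : orderOf σ = p := orderOf_eq_prime hpow hσ1
  refine ⟨ho, ?_⟩
  have hle : Subgroup.zpowers σ ≤ U := by
    rw [Subgroup.zpowers_le]
    exact hσ
  have heq : Subgroup.zpowers σ = U := by
    apply Subgroup.eq_of_le_of_card_ge hle
    rw [hU, Nat.card_zpowers, ho]
  intro v hv
  rw [← heq] at hv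
  have := (mem_powers_iff_mem_zpowers).2 hv
  obtain ⟨n, hn⟩ := Submonoid.mem_powers_iff _ _ |>.1 this
  exact ⟨n, hn.symm⟩

theorem exists_ne_one_of_card {U : Subgroup G} (hU : Nat.card U = p) (hp : p.Prime) :
    ∃ u ∈ U, u ≠ 1 := by
  haveI : Nontrivial U := by
    rw [← Finite.one_lt_card_iff_nontrivial, hU]
    exact hp.one_lt
  obtain ⟨x, hx⟩ := exists_ne (1 : U)
  exact ⟨x, x.2, fun h => hx (Subtype.ext h)⟩

variable [Fintype Ω] [FaithfulSMul G Ω] {T₀ : Ω → Ω → Ω → Prop}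

/-- The first dichotomy: `U` is normal, or the kernel on the classes is the `T`-group. -/
theorem dich1 (hp : p.Prime) (S : Sys G p T₀) (hb : b ≠ a) (hP : PD G p a b P) (E : Eqv G a (T₀ a)) :
    (∀ g : G, g • a = a → ∀ u ∈ classSub hP E hb, g * u * g⁻¹ ∈ classSub hP E hb) ∨
    ∃ T : Subgroup G, Nrm a T ∧ (orbS T b).ncard = p ∧
      ∀ c ∈ orbS T b, c ≠ b → ∀ d ∈ orbS T b, d ≠ b → ∃ t ∈ T, t • b = b ∧ t • c = d := by
  classical
  haveI : Fact p.Prime := ⟨hp⟩
  set U : Subgroup G := classSub hP E hb with hU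
  have hUmem : ∀ v, v ∈ U ↔ v ∈ P ∧ T₀ a b (v • b) := fun v => Iff.rfl
  have hcardU : Nat.card U = p := by
    rw [hU, ← card_class hP E hb]
    exact S.card hb
  let K₁ : Subgroup G :=
    { carrier := {g | g • a = a ∧ ∀ c, c ≠ a → T₀ a c (g • c)}
      mul_mem' := by
        rintro g h ⟨hg, hg2⟩ ⟨hh, hh2⟩
        refine ⟨by rw [mul_smul, hh, hg], fun c hc => ?_⟩
        rw [mul_smul]
        exact E.trans (hh2 c hc) (hg2 _ (smul_ne_of_fix hh hc))
      one_mem' := ⟨one_smul _ _, fun c hc => by rw [one_smul]; exact E.refl hc⟩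
      inv_mem' := by
        rintro g ⟨hg, hg2⟩
        have hginv : g⁻¹ • a = a := by rw [inv_smul_eq_iff, hg]
        refine ⟨hginv, fun c hc => ?_⟩
        have := hg2 _ (smul_ne_of_fix hginv hc)
        rw [smul_inv_smul] at this
        exact E.symm this }
  have hK₁mem : ∀ g, g ∈ K₁ ↔ g • a = a ∧ ∀ c, c ≠ a → T₀ a c (g • c) := fun g => Iff.rfl
  have hN₁ : Nrm a K₁ := by
    refine ⟨fun k hk => hk.1, ?_⟩
    intro g hg k hk
    have hginv : g⁻¹ • a = a := by rw [inv_smul_eq_iff, hg]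
    refine ⟨by simp only [mul_smul, hginv, hk.1, hg], fun c hc => ?_⟩
    have h1 := hk.2 _ (smul_ne_of_fix hginv hc)
    have h2 := E.inv g hg h1
    simpa only [smul_inv_smul, mul_smul] using h2
  have hUK : U ≤ K₁ := by
    intro u hu
    have huP := ((hUmem u).1 hu).1
    have hub := ((hUmem u).1 hu).2
    refine ⟨hP.le huP, fun c hc => ?_⟩
    obtain ⟨v, hv, rfl⟩ := hP.trans c hc
    have h1 := E.inv v (hP.le hv) hub
    rw [← mul_smul, hP.comm v hv u huP, mul_smul] at h1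
    exact h1
  have horb : orbS K₁ b = {d | T₀ a b d} := by
    ext d
    constructor
    · rintro ⟨k, hk, rfl⟩
      exact hk.2 b hb
    · intro hd
      obtain ⟨v, hv, rfl⟩ := hP.trans d (S.ne hd).2
      exact ⟨v, hUK ((hUmem v).2 ⟨hv, hd⟩), rfl⟩
  obtain ⟨u₀, hu₀, hu₀1⟩ := exists_ne_one_of_card hcardU hp
  obtain ⟨hu₀o, hu₀gen⟩ := gen_of_card hcardU hp hu₀ hu₀1
  have hu₀P := ((hUmem u₀).1 hu₀).1
  have hu₀p : u₀ ^ p = 1 := by rw [← hu₀o]; exact pow_orderOf_eq_one u₀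
  have hu₀b : u₀ • b ≠ b := fun h => hu₀1 (hP.free _ hu₀P b hb h)
  have hΔ : ∀ k ∈ K₁, ∃ i : ℕ, k • b = u₀ ^ i • b := by
    intro k hk
    have h1 : T₀ a b (k • b) := hk.2 b hb
    obtain ⟨v, hv, hvb⟩ := hP.trans (k • b) (S.ne h1).2
    rw [← hvb] at h1
    obtain ⟨i, hi⟩ := hu₀gen v ((hUmem v).2 ⟨hv, h1⟩)
    exact ⟨i, by rw [← hvb, hi]⟩
  rcases burn (hUK hu₀) b hu₀p hu₀b hΔ with hAff | h2hom
  · left
    -- every `p`-element of `K₁` acts on every class as a power of `u₀`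
    have hA1 : ∀ g ∈ K₁, (∃ k : ℕ, g ^ (p ^ k) = 1) → ∀ c, c ≠ a →
        ∃ i : ℕ, ∀ d ∈ orbS K₁ c, g • d = u₀ ^ i • d := by
      rintro g hg ⟨k, hk⟩ c hc
      obtain ⟨v, hv, rfl⟩ := hP.trans c hc
      have hvinv : v⁻¹ • a = a := hP.le (P.inv_mem hv)
      have hg' := hN₁.conj v⁻¹ hvinv g hg
      obtain ⟨i, hi⟩ := hAff _ hg' ⟨k, by rw [conj_pow, hk]; group⟩
      refine ⟨i, ?_⟩
      rintro _ ⟨k', hk', rfl⟩
      have h1 : v⁻¹ • (k' • v • b) ∈ orbS K₁ b :=
        ⟨v⁻¹ * k' * v⁻¹⁻¹, hN₁.conj v⁻¹ hvinv k' hk', by simp only [inv_inv, mul_smul, smul_inv_smul]⟩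
      have h2 := hi _ h1
      simp only [inv_inv, mul_smul, smul_inv_smul] at h2
      have hcomm : v * u₀ ^ i = u₀ ^ i * v := by
        have : Commute v u₀ := hP.comm v hv u₀ hu₀P
        exact this.pow_right i
      have h3 := congrArg (fun z => v • z) h2
      simp only [smul_inv_smul] at h3
      rw [h3, ← mul_smul v, hcomm, mul_smul, smul_inv_smul]
    have hA2 : ∀ g ∈ K₁, (∃ k : ℕ, g ^ (p ^ k) = 1) → g * u₀ = u₀ * g := by
      intro g hg hk
      apply FaithfulSMul.eq_of_smul_eq_smul (α := Ω)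
      intro c
      by_cases hc : c = a
      · rw [hc, mul_smul, mul_smul, hP.le hu₀P, hg.1, hP.le hu₀P]
      · obtain ⟨i, hi⟩ := hA1 g hg hk c hc
        rw [mul_smul, mul_smul, hi _ ⟨u₀, hUK hu₀, rfl⟩, hi _ (self_mem_orbS K₁ c), ← mul_smul,
          ← mul_smul, ← pow_succ, ← pow_succ']
    have hA3 : ∀ g : G, g • a = a → g * u₀ * g⁻¹ ∈ U := by
      intro g hg
      set w := g * u₀ * g⁻¹ with hw
      have hwK : w ∈ K₁ := hN₁.conj g hg u₀ (hUK hu₀)
      have hwp : w ^ p = 1 := by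
        rw [hw, conj_pow, hu₀p]
        group
      have hcomm : Commute ((u₀ ^ 0)⁻¹) w := by simp
      have hwu : w * u₀ = u₀ * w := hA2 w hwK ⟨1, by simpa using hwp⟩
      obtain ⟨i, hi⟩ := hΔ w hwK
      have hcw : Commute (u₀ ^ i) w := Commute.pow_left (Commute.symm hwu) i
      set r := (u₀ ^ i)⁻¹ * w with hr
      have hrp : r ^ p = 1 := by
        rw [hr, (hcw.inv_left).mul_pow, hwp, mul_one, inv_pow, ← pow_mul, mul_comm, pow_mul, hu₀p,
          one_pow, inv_one]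
      have hra : r • a = a := by
        have h1 : (u₀ ^ i)⁻¹ • a = a := by
          rw [inv_smul_eq_iff]
          exact (Subgroup.pow_mem (stabilizer G a) (hP.le hu₀P) i).symm
        rw [hr, mul_smul, hwK.1, h1]
      have hrb : r • b = b := by
        rw [hr, mul_smul, hi, inv_smul_smul]
      have hr1 := pelt_fix hP hra (k := 1) (by simpa using hrp) hb hrb
      have hweq : w = u₀ ^ i := by
        rw [hr, inv_mul_eq_one] at hr1
        exact hr1.symm
      rw [hweq]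
      exact U.pow_mem hu₀ i
    intro g hg u hu
    obtain ⟨j, rfl⟩ := hu₀gen u hu
    rw [← conj_pow]
    exact U.pow_mem (hA3 g hg) j
  · right
    refine ⟨K₁, hN₁, ?_, h2hom⟩
    rw [horb]
    exact S.card hb

/-- The second dichotomy. -/
theorem dich2 (hp : p.Prime) (hΩ : Fintype.card Ω = p ^ 2 + 1)
    (h2 : ∀ {u v u' v' : Ω}, u ≠ v → u' ≠ v' → ∃ g : G, g • u = u' ∧ g • v = v')
    (S : Sys G p T₀) (hab : a ≠ b) (hP : PD G p a b P)
    (hH : ¬ p ∣ Nat.card ↥(stabilizer G a ⊓ stabilizer G b)) (E : Eqv G a (T₀ a))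
    (hUN : ∀ g : G, g • a = a → ∀ u ∈ classSub hP E hab.symm,
      g * u * g⁻¹ ∈ classSub hP E hab.symm) :
    (∀ g : G, g • a = a → ∀ v ∈ P, g * v * g⁻¹ ∈ P) ∨
    ∃ T : Subgroup G, Nrm a T ∧ (orbS T b).ncard = p ∧
      ∀ c ∈ orbS T b, c ≠ b → ∀ d ∈ orbS T b, d ≠ b → ∃ t ∈ T, t • b = b ∧ t • c = d := by
  classical
  haveI : Fact p.Prime := ⟨hp⟩
  have hb : b ≠ a := hab.symm
  set U : Subgroup G := classSub hP E hb with hU
  have hUmem : ∀ v, v ∈ U ↔ v ∈ P ∧ T₀ a b (v • b) := fun v => Iff.rfl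
  have hUP : U ≤ P := fun v hv => hv.1
  have hcardU : Nat.card U = p := by
    rw [hU, ← card_class hP E hb]
    exact S.card hb
  obtain ⟨u₀, hu₀, hu₀1⟩ := exists_ne_one_of_card hcardU hp
  obtain ⟨hu₀o, hu₀gen⟩ := gen_of_card hcardU hp hu₀ hu₀1
  have hu₀P := hUP hu₀
  let C : Subgroup G :=
    { carrier := {g | g • a = a ∧ Commute g u₀}
      mul_mem' := by
        rintro g h ⟨hg, hg2⟩ ⟨hh, hh2⟩
        exact ⟨by rw [mul_smul, hh, hg], hg2.mul_left hh2⟩
      one_mem' := ⟨one_smul _ _, Commute.one_left _⟩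
      inv_mem' := by
        rintro g ⟨hg, hg2⟩
        exact ⟨by rw [inv_smul_eq_iff, hg], hg2.inv_left⟩ }
  have hCmem : ∀ g, g ∈ C ↔ g • a = a ∧ Commute g u₀ := fun g => Iff.rfl
  have hCU : ∀ c ∈ C, ∀ u ∈ U, Commute c u := by
    intro c hc u hu
    obtain ⟨j, rfl⟩ := hu₀gen u hu
    exact Commute.pow_right hc.2 j
  have hPC : P ≤ C := fun v hv => ⟨hP.le hv, hP.comm v hv u₀ hu₀P⟩
  have hCN : Nrm a C := by
    refine ⟨fun k hk => hk.1, ?_⟩
    intro g hg c hc
    have hginv : g⁻¹ • a = a := by rw [inv_smul_eq_iff, hg]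
    refine ⟨by simp only [mul_smul, hginv, hc.1, hg], ?_⟩
    obtain ⟨u', hu', hu⟩ : ∃ u' ∈ U, u₀ = g * u' * g⁻¹ := by
      refine ⟨g⁻¹ * u₀ * g⁻¹⁻¹, hUN g⁻¹ hginv u₀ hu₀, by group⟩
    have h1 : c * u' = u' * c := hCU c hc u' hu'
    show g * c * g⁻¹ * u₀ = u₀ * (g * c * g⁻¹)
    rw [hu]
    calc g * c * g⁻¹ * (g * u' * g⁻¹) = g * (c * u') * g⁻¹ := by group
      _ = g * (u' * c) * g⁻¹ := by rw [h1]
      _ = (g * u' * g⁻¹) * (g * c * g⁻¹) := by group
  let T₂ : Subgroup G := Subgroup.closure {c | c ∈ C ∧ ¬ p ∣ orderOf c}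
  have hT₂C : T₂ ≤ C := (Subgroup.closure_le _).2 (fun c hc => hc.1)
  have hT₂N : Nrm a T₂ := by
    refine ⟨fun k hk => (hT₂C hk).1, ?_⟩
    intro g hg k hk
    induction hk using Subgroup.closure_induction with
    | mem x hx =>
      apply Subgroup.subset_closure
      refine ⟨hCN.conj g hg x hx.1, ?_⟩
      have h3 : orderOf (g * x * g⁻¹) = orderOf x := by
        have := MulEquiv.orderOf_eq (MulAut.conj g) x
        simpa [MulAut.conj_apply] using this
      rw [h3]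
      exact hx.2
    | one => simp
    | mul x y _ _ hx hy =>
      have h3 : g * (x * y) * g⁻¹ = (g * x * g⁻¹) * (g * y * g⁻¹) := by group
      rw [h3]
      exact T₂.mul_mem hx hy
    | inv x _ hx =>
      have h3 : g * x⁻¹ * g⁻¹ = (g * x * g⁻¹)⁻¹ := by group
      rw [h3]
      exact T₂.inv_mem hx
  -- `T₂` meets `U` trivially, by transfer
  have hT₂U : ∀ u ∈ U, u ∈ T₂ → u = 1 := by
    let Pc : Subgroup C := P.subgroupOf C
    have hPc : Nat.card Pc = p ^ 2 := by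
      rw [← hP.card]
      exact Nat.card_congr (Subgroup.subgroupOfEquivOfLe hPC).toEquiv
    obtain ⟨N, hN1, hN2⟩ := transfer_kill hp Pc
      (fun x hx y hy => Subtype.ext (hP.comm x hx y hy)) hPc
    have hle : T₂ ≤ N.map C.subtype := by
      refine (Subgroup.closure_le _).2 ?_
      intro c hc
      refine ⟨⟨c, hc.1⟩, hN1 _ ?_, rfl⟩
      rw [Subgroup.orderOf_mk]
      exact hc.2
    intro u hu hut
    obtain ⟨x, hxN, rfl⟩ := hle hut
    have hxcen : ∀ g : C, g * x = x * g := by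
      intro g
      apply Subtype.ext
      exact hCU g g.2 x hu
    have h3 := hN2 x (hUP hu) hxcen hxN
    have h4 : (x : G) ^ Pc.index = 1 := congrArg Subtype.val h3
    have h5 : (x : G) ^ p = 1 := by
      have := pow_card_eq_one' (x := (⟨x, hu⟩ : U))
      rw [hcardU] at this
      exact congrArg Subtype.val this
    have hidx : ¬ p ∣ Pc.index := by
      intro hd
      have h6 := Pc.card_mul_index
      rw [hPc] at h6
      have h7 : Nat.card C ∣ Nat.card (stabilizer G a) :=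
        Subgroup.card_dvd_of_le (fun c hc => hc.1)
      rw [card_stab_eq hΩ h2 hab, ← h6] at h7
      have h8 := Nat.dvd_of_mul_dvd_mul_left (pow_pos hp.pos 2) h7
      exact hH (hd.trans h8)
    have hco : Nat.Coprime Pc.index p :=
      Nat.Coprime.symm ((Nat.Prime.coprime_iff_not_dvd hp).2 hidx)
    have h6 := pow_gcd_eq_one.2 ⟨h4, h5⟩
    rw [hco, pow_one] at h6
    exact h6
  -- orbits of `T₂` meet the classes in one point
  have hΛΔ : ∀ t ∈ T₂, ∀ u ∈ U, t • b = u • b → u = 1 := by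
    intro t ht u hu htb
    by_contra hu1
    obtain ⟨huo, _⟩ := gen_of_card hcardU hp hu hu1
    have hcomm : Commute t u := hCU t (hT₂C ht) u hu
    have hpow : ∀ n : ℕ, t ^ n • b = u ^ n • b := by
      intro n
      induction n with
      | zero => simp
      | succ n ih =>
        have h3 : t ^ n * u = u * t ^ n := (hcomm.pow_left n)
        rw [pow_succ, mul_smul, htb, ← mul_smul, h3, mul_smul, ih, ← mul_smul, ← pow_succ']
    obtain ⟨k, m, hm, hord⟩ := Nat.exists_eq_pow_mul_and_not_dvd (orderOf_pos t).ne' p hp.ne_one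
    set y := t ^ m with hy
    have hyk : y ^ (p ^ k) = 1 := by
      rw [hy, ← pow_mul, mul_comm, ← hord, pow_orderOf_eq_one]
    have hup : u ^ p = 1 := by rw [← huo]; exact pow_orderOf_eq_one u
    have hcy : Commute (u ^ m) y := by
      rw [hy]
      exact (hcomm.symm.pow_pow m m)
    set w := (u ^ m)⁻¹ * y with hw
    have hwp : w ^ (p ^ (k + 1)) = 1 := by
      have e1 : (u ^ m) ^ (p ^ (k + 1)) = (u ^ p) ^ (m * p ^ k) := by
        rw [← pow_mul, ← pow_mul]
        congr 1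
        ring
      have e2 : y ^ (p ^ (k + 1)) = (y ^ (p ^ k)) ^ p := by rw [pow_succ, pow_mul]
      rw [hw, hcy.inv_left.mul_pow, inv_pow, e1, hup, one_pow, inv_one, one_mul, e2, hyk, one_pow]
    have hua : ∀ n : ℕ, (u ^ n) • a = a := by
      intro n
      exact Subgroup.pow_mem (stabilizer G a) (hP.le (hUP hu)) n
    have hya : y • a = a := Subgroup.pow_mem (stabilizer G a) (hT₂C ht).1 m
    have hwa : w • a = a := by
      rw [hw, mul_smul, hya, inv_smul_eq_iff, hua]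
    have hwb : w • b = b := by
      rw [hw, mul_smul, hy, hpow, inv_smul_smul]
    have hw1 := pelt_fix hP hwa hwp hb hwb
    have hyu : y = u ^ m := by
      rw [hw, inv_mul_eq_one] at hw1
      exact hw1.symm
    have hyT : y ∈ T₂ := T₂.pow_mem ht m
    rw [hyu] at hyT
    have h3 := hT₂U _ (U.pow_mem hu m) hyT
    have h4 := orderOf_dvd_of_pow_eq_one h3
    rw [huo] at h4
    exact hm h4
  have hcomplc : ({a}ᶜ : Set Ω).ncard = p ^ 2 := by
    rw [Set.ncard_compl, Set.ncard_singleton, Nat.card_eq_fintype_card, hΩ]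
    omega
  have E₂ := orbEqv hT₂N
  have hset₂ : {d | rO a T₂ b d} = orbS T₂ b := rO_iff hT₂N hb
  have hsz := class_size hp hP E₂ hb
  change Set.ncard {d | rO a T₂ b d} = 1 ∨ Set.ncard {d | rO a T₂ b d} = p ∨
    Set.ncard {d | rO a T₂ b d} = p ^ 2 at hsz
  rw [hset₂] at hsz
  rcases hsz with h1 | h1 | h1
  · -- `T₂` is trivial
    left
    have hfixb : ∀ t ∈ T₂, t • b = b := by
      intro t ht
      have hm1 : t • b ∈ orbS T₂ b := ⟨t, ht, rfl⟩
      have hm2 : b ∈ orbS T₂ b := self_mem_orbS T₂ b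
      exact (Set.ncard_le_one_iff (Set.toFinite _)).1 (le_of_eq h1) hm1 hm2
    have hT₂bot : ∀ t ∈ T₂, t = 1 := by
      intro t ht
      apply FaithfulSMul.eq_of_smul_eq_smul (α := Ω)
      intro c
      rw [one_smul]
      by_cases hc : c = a
      · rw [hc]; exact (hT₂C ht).1
      · obtain ⟨v, hv, rfl⟩ := hP.trans c hc
        have hvinv : v⁻¹ • a = a := hP.le (P.inv_mem hv)
        have h3 := hfixb _ (hT₂N.conj v⁻¹ hvinv t ht)
        simp only [inv_inv, mul_smul] at h3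
        have h4 := congrArg (fun z => v • z) h3
        simpa only [smul_inv_smul] using h4
    have hCp : ∀ c ∈ C, ∃ k : ℕ, c ^ (p ^ k) = 1 := by
      intro c hc
      obtain ⟨k, m, hm, hord⟩ := Nat.exists_eq_pow_mul_and_not_dvd (orderOf_pos c).ne' p hp.ne_one
      refine ⟨k, ?_⟩
      apply hT₂bot
      apply Subgroup.subset_closure
      refine ⟨C.pow_mem hc _, ?_⟩
      rw [orderOf_pow_of_dvd (pow_ne_zero _ hp.ne_zero) ⟨m, hord⟩, hord,
        Nat.mul_div_cancel_left _ (pow_pos hp.pos k)]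
      exact hm
    have hCfree : C ⊓ stabilizer G b = ⊥ := by
      rw [eq_bot_iff]
      intro c hc
      obtain ⟨hc1, hc2⟩ := Subgroup.mem_inf.1 hc
      obtain ⟨k, hk⟩ := hCp c hc1
      rw [Subgroup.mem_bot]
      exact pelt_fix hP hc1.1 hk hb hc2
    have hCP : C = P := by
      symm
      apply Subgroup.eq_of_le_of_card_ge hPC
      rw [card_orbS C b, hCfree, Subgroup.card_bot, mul_one, hP.card, ← hcomplc]
      apply Set.ncard_le_ncard _ (Set.toFinite _)
      rintro _ ⟨c, hc, rfl⟩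
      exact smul_ne_of_fix hc.1 hb
    intro g hg v hv
    rw [← hCP] at hv ⊢
    exact hCN.conj g hg v hv
  · -- orbits of size `p`
    obtain ⟨y₀, hy₀T, hy₀P, hy₀1, hy₀o⟩ := exists_u0 hp hP hT₂N h1
    have hWcard := card_Ut hP hT₂N hb h1
    have hy₀W : y₀ ∈ classSub hP (orbEqv hT₂N) hb :=
      ⟨hy₀P, hb, smul_ne_of_fix (hP.le hy₀P) hb, y₀, hy₀T, rfl⟩
    obtain ⟨_, hy₀gen⟩ := gen_of_card hWcard hp hy₀W hy₀1
    have hΔ : ∀ k ∈ T₂, ∃ i : ℕ, k • b = y₀ ^ i • b := by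
      intro k hk
      have hka : k • b ≠ a := smul_ne_of_fix (hT₂N.le k hk) hb
      obtain ⟨v, hv, hvb⟩ := hP.trans _ hka
      obtain ⟨i, hi⟩ := hy₀gen v ⟨hv, hb, by rw [hvb]; exact hka, k, hk, hvb.symm⟩
      exact ⟨i, by rw [← hvb, hi]⟩
    have hy₀p : y₀ ^ p = 1 := by rw [← hy₀o]; exact pow_orderOf_eq_one y₀
    have hy₀b : y₀ • b ≠ b := fun h => hy₀1 (hP.free _ hy₀P b hb h)
    rcases burn hy₀T b hy₀p hy₀b hΔ with hAff | h2hom
    · left
      -- covering
      let K₂ : Subgroup G :=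
        { carrier := {g | ∃ u ∈ U, ∃ t ∈ T₂, g = u * t}
          mul_mem' := by
            rintro _ _ ⟨u, hu, t, ht, rfl⟩ ⟨u', hu', t', ht', rfl⟩
            refine ⟨u * u', U.mul_mem hu hu', t * t', T₂.mul_mem ht ht', ?_⟩
            have : t * u' = u' * t := hCU t (hT₂C ht) u' hu'
            calc u * t * (u' * t') = u * (t * u') * t' := by group
              _ = u * (u' * t) * t' := by rw [this]
              _ = u * u' * (t * t') := by group
          one_mem' := ⟨1, U.one_mem, 1, T₂.one_mem, by simp⟩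
          inv_mem' := by
            rintro _ ⟨u, hu, t, ht, rfl⟩
            refine ⟨u⁻¹, U.inv_mem hu, t⁻¹, T₂.inv_mem ht, ?_⟩
            have : t * u = u * t := hCU t (hT₂C ht) u hu
            rw [mul_inv_rev]
            exact ((Commute.inv_inv (show Commute t u from this)).eq)}
      have hK₂N : Nrm a K₂ := by
        refine ⟨?_, ?_⟩
        · rintro _ ⟨u, hu, t, ht, rfl⟩
          rw [mul_smul, (hT₂C ht).1, hP.le (hUP hu)]
        · rintro g hg _ ⟨u, hu, t, ht, rfl⟩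
          refine ⟨g * u * g⁻¹, hUN g hg u hu, g * t * g⁻¹, hT₂N.conj g hg t ht, by group⟩
      have hcover : ∀ c, c ≠ a → ∃ u ∈ U, ∃ t ∈ T₂, c = u • t • b := by
        intro c hc
        have E₃ := orbEqv hK₂N
        have hset₃ : {d | rO a K₂ b d} = orbS K₂ b := rO_iff hK₂N hb
        have hsz3 := class_size hp hP E₃ hb
        change Set.ncard {d | rO a K₂ b d} = 1 ∨ Set.ncard {d | rO a K₂ b d} = p ∨
          Set.ncard {d | rO a K₂ b d} = p ^ 2 at hsz3
        rw [hset₃] at hsz3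
        have hsub : {d | T₀ a b d} ⊆ orbS K₂ b := by
          intro d hd
          obtain ⟨v, hv, rfl⟩ := hP.trans d (S.ne hd).2
          exact ⟨v, ⟨v, (hUmem v).2 ⟨hv, hd⟩, 1, T₂.one_mem, by simp⟩, rfl⟩
        have hall : orbS K₂ b = {a}ᶜ := by
          rcases hsz3 with h3 | h3 | h3
          · exfalso
            have hm1 : u₀ • b ∈ orbS K₂ b := ⟨u₀, ⟨u₀, hu₀, 1, T₂.one_mem, by simp⟩, rfl⟩
            have hm2 : b ∈ orbS K₂ b := self_mem_orbS K₂ b
            have h4 := (Set.ncard_le_one_iff (Set.toFinite _)).1 (le_of_eq h3) hm1 hm2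
            exact hu₀1 (hP.free _ hu₀P b hb h4)
          · exfalso
            have heq := Set.eq_of_subset_of_ncard_le hsub (by rw [h3, S.card hb])
            have hm1 : y₀ • b ∈ orbS K₂ b := ⟨y₀, ⟨1, U.one_mem, y₀, hy₀T, by simp⟩, rfl⟩
            rw [← heq] at hm1
            exact hy₀1 (hT₂U y₀ ((hUmem y₀).2 ⟨hy₀P, hm1⟩) hy₀T)
          · have hsub2 : orbS K₂ b ⊆ {a}ᶜ := by
              rintro _ ⟨k, hk, rfl⟩
              exact smul_ne_of_fix (hK₂N.le k hk) hb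
            exact Set.eq_of_subset_of_ncard_le hsub2 (by rw [hcomplc, h3])
        have hc' : c ∈ orbS K₂ b := by rw [hall]; exact hc
        obtain ⟨_, ⟨u, hu, t, ht, rfl⟩, hk⟩ := hc'
        exact ⟨u, hu, t, ht, by rw [← hk, mul_smul]⟩
      have hr1 : ∀ r ∈ T₂, (∀ c ∈ orbS T₂ b, r • c = c) → r = 1 := by
        intro r hr hfix
        apply FaithfulSMul.eq_of_smul_eq_smul (α := Ω)
        intro c
        rw [one_smul]
        by_cases hc : c = a
        · rw [hc]; exact (hT₂C hr).1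
        · obtain ⟨u, hu, t, ht, rfl⟩ := hcover c hc
          have h3 : r * u = u * r := hCU r (hT₂C hr) u hu
          rw [← mul_smul, h3, mul_smul, hfix _ ⟨t, ht, rfl⟩]
      have hY : ∀ g : G, g • a = a → ∃ i : ℕ, g * y₀ * g⁻¹ = y₀ ^ i := by
        intro g hg
        set w := g * y₀ * g⁻¹ with hw
        have hwT : w ∈ T₂ := hT₂N.conj g hg y₀ hy₀T
        have hwp : w ^ p = 1 := by
          rw [hw, conj_pow, hy₀p]
          group
        obtain ⟨i, hi⟩ := hAff w hwT ⟨1, by simpa using hwp⟩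
        refine ⟨i, ?_⟩
        have h3 := hr1 ((y₀ ^ i)⁻¹ * w) (T₂.mul_mem (T₂.inv_mem (T₂.pow_mem hy₀T i)) hwT) (by
          intro c hc
          rw [mul_smul, hi c hc, inv_smul_smul])
        rw [inv_mul_eq_one] at h3
        exact h3.symm
      intro g hg v hv
      obtain ⟨i, hi⟩ := hY g hg
      have hva : v • b ≠ a := smul_ne_of_fix (hP.le hv) hb
      obtain ⟨u, hu, t, ht, hcv⟩ := hcover _ hva
      obtain ⟨j, hj⟩ := hΔ t ht
      rw [hj, ← mul_smul] at hcv
      have hveq : v = u * y₀ ^ j := by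
        apply P_smul_inj hP hb hv (P.mul_mem (hUP hu) (P.pow_mem hy₀P j))
        exact hcv
      rw [hveq]
      have h3 : g * (u * y₀ ^ j) * g⁻¹ = (g * u * g⁻¹) * (g * y₀ * g⁻¹) ^ j := by
        rw [conj_pow]
        group
      rw [h3, hi]
      exact P.mul_mem (hUP (hUN g hg u hu)) (P.pow_mem (P.pow_mem hy₀P i) j)
    · right
      exact ⟨T₂, hT₂N, h1, h2hom⟩
  · exfalso
    have hsub : orbS T₂ b ⊆ {a}ᶜ := by
      rintro _ ⟨k, hk, rfl⟩
      exact smul_ne_of_fix (hT₂N.le k hk) hb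
    have heq := Set.eq_of_subset_of_ncard_le hsub (by rw [hcomplc, h1])
    have hm : u₀ • b ∈ ({a}ᶜ : Set Ω) := smul_ne_of_fix (hP.le hu₀P) hb
    rw [← heq] at hm
    obtain ⟨t, ht, htb⟩ := hm
    exact hu₀1 (hΛΔ t ht u₀ hu₀ htb)

end Gen

end Cfsg.Agent.Lib.DPrimN2
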