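import Mathlib
import Cfsg.Agent.Lib.DPrimN2
import Cfsg.Agent.Lib.DPrimI2

set_option autoImplicit false

namespace Cfsg.Agent.Lib.DPrimF

open MulAction Cfsg.Agent.Lib.DPrimA Cfsg.Agent.Lib.DPrimB Cfsg.Agent.Lib.DPrimK
  Cfsg.Agent.Lib.DPrimT Cfsg.Agent.Lib.DPrimN Cfsg.Agent.Lib.DPrimN2 Cfsg.Agent.Lib.DPrimI2

variable {G Ω : Type*} [Group G] [MulAction G Ω]

theorem odd_fix_small [Finite G] {x : G} (hx : ¬ 2 ∣ orderOf x) (X : Set Ω) (hfin : X.Finite)
    (hX : X.ncard ≤ 2) (hinv : ∀ y ∈ X, x • y ∈ X) : ∀ y ∈ X, x • y = y := by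
  intro y hy
  by_contra h
  have h1 : x • y ∈ X := hinv y hy
  have h3 : x • x • y ∈ X := hinv _ h1
  have hne1 : x • x • y ≠ x • y := fun e => h (MulAction.injective x e)
  have hfix : x • x • y = y := by
    by_contra hne2
    have hsub : ({x • x • y, x • y, y} : Set Ω) ⊆ X := by
      rintro z (rfl | rfl | rfl)
      · exact h3
      · exact h1
      · exact hy
    have h4 := Set.ncard_le_ncard hsub hfin
    have h5 : ({x • x • y, x • y, y} : Set Ω).ncard = 3 := by
      rw [Set.ncard_insert_of_notMem, Set.ncard_pair h]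
      simp only [Set.mem_insert_iff, Set.mem_singleton_iff, not_or]
      exact ⟨hne1, hne2⟩
    omega
  have hmem : x ^ 2 ∈ stabilizer G y := by
    rw [mem_stabilizer_iff, pow_two, mul_smul]
    exact hfix
  obtain ⟨m, hm⟩ : ∃ m, orderOf x = 2 * m + 1 := by
    have : Odd (orderOf x) := Nat.odd_iff.2 (by omega)
    exact this
  have h6 : (x ^ 2) ^ (m + 1) = x := by
    rw [← pow_mul]
    have : 2 * (m + 1) = orderOf x + 1 := by omega
    rw [this, pow_succ, pow_orderOf_eq_one, one_mul]
  apply h
  have h7 := Subgroup.pow_mem _ hmem (m + 1)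
  rw [h6] at h7
  exact h7

/-- The main theorem. -/
theorem main {G Ω : Type*} [Group G] [Finite G] [Fintype Ω] [MulAction G Ω] [FaithfulSMul G Ω] (p : ℕ)
    (hp : p.Prime) (hΩ : Fintype.card Ω = p ^ 2 + 1) (h2 : MulAction.IsMultiplyPretransitive G Ω 2)
    (a : Ω) :
    MulAction.IsPreprimitive ↥(MulAction.stabilizer G a) ↥(SubMulAction.ofStabilizer G a) ∨
      (p = 2 ∧ Nat.card G = 20) := by
  classical
  by_contra hcon
  rw [not_or] at hcon
  obtain ⟨hnp, h20⟩ := hcon
  rw [MulAction.is_two_pretransitive_iff] at h2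
  have h2' : ∀ {u v u' v' : Ω}, u ≠ v → u' ≠ v' → ∃ g : G, g • u = u' ∧ g • v = v' := h2
  obtain ⟨r, B⟩ := exists_base_of_not_prim hp hΩ h2' a hnp
  obtain ⟨b, hb⟩ : ∃ b, b ≠ a := by
    have : Nontrivial Ω := by
      apply Fintype.one_lt_card_iff_nontrivial.1
      rw [hΩ]
      have := pow_pos hp.pos 2
      omega
    exact exists_ne a
  have hab : a ≠ b := hb.symm
  have htr : ∀ x : Ω, ∃ g : G, g • a = x := by
    intro x
    by_cases hx : x = a
    · exact ⟨1, by rw [hx, one_smul]⟩
    · obtain ⟨g, hg1, _⟩ := h2' hab hx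
      exact ⟨g, hg1⟩
  have S := B.sys htr
  obtain ⟨hH, P, hP⟩ := exists_PD hp hΩ h2' S hab
  by_cases hodd : p = 2
  · -- `p = 2`
    subst hodd
    apply h20
    refine ⟨rfl, ?_⟩
    rw [card_G_eq hΩ h2' hab]
    have hHbot : stabilizer G a ⊓ stabilizer G b = ⊥ := by
      rw [eq_bot_iff]
      intro x hx
      obtain ⟨hxa, hxb⟩ := Subgroup.mem_inf.1 hx
      have hxa' : x • a = a := hxa
      have hxb' : x • b = b := hxb
      have hxodd : ¬ 2 ∣ orderOf x := by
        intro hd
        apply hH
        have h3 : orderOf (⟨x, hx⟩ : ↥(stabilizer G a ⊓ stabilizer G b)) = orderOf x :=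
          Subgroup.orderOf_mk _ _
        rw [← h3] at hd
        exact hd.trans (orderOf_dvd_natCard _)
      set C : Set Ω := {z | lift G a r a b z} with hC
      have hCc : C.ncard = 2 := S.card hb
      have hCinv : ∀ z ∈ C, x • z ∈ C := by
        intro z hz
        have := S.inv x hz
        rwa [hxa', hxb'] at this
      have hX1 : ∀ y ∈ C \ {b}, x • y = y := by
        apply odd_fix_small hxodd _ (Set.toFinite _)
        · have hbm : b ∈ C := S.refl hb
          rw [Set.ncard_diff_singleton_of_mem hbm, hCc]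
          omega
        · rintro y ⟨hy, hyb⟩
          refine ⟨hCinv y hy, ?_⟩
          intro h
          apply hyb
          have : x • y = x • b := by rw [hxb']; exact h
          exact MulAction.injective x this
      have hX2 : ∀ y ∈ ({a} ∪ C)ᶜ, x • y = y := by
        apply odd_fix_small hxodd _ (Set.toFinite _)
        · rw [Set.ncard_compl, Nat.card_eq_fintype_card, hΩ]
          have hdisj : Disjoint ({a} : Set Ω) C := by
            rw [Set.disjoint_singleton_left]
            intro h
            exact (S.ne h).2 rfl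
          rw [Set.ncard_union_eq hdisj, Set.ncard_singleton, hCc]
          norm_num
        · intro y hy
          simp only [Set.mem_compl_iff, Set.mem_union, Set.mem_singleton_iff, not_or] at hy ⊢
          refine ⟨smul_ne_of_fix hxa' hy.1, ?_⟩
          intro h
          apply hy.2
          have hxinv : x⁻¹ • a = a := by rw [inv_smul_eq_iff, hxa']
          have hxinvb : x⁻¹ • b = b := by rw [inv_smul_eq_iff, hxb']
          have := S.inv x⁻¹ h
          rwa [hxinv, hxinvb, inv_smul_smul] at this
      rw [Subgroup.mem_bot]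
      apply FaithfulSMul.eq_of_smul_eq_smul (α := Ω)
      intro y
      rw [one_smul]
      by_cases hya : y = a
      · rw [hya]; exact hxa'
      by_cases hyb : y = b
      · rw [hyb]; exact hxb'
      by_cases hyC : y ∈ C
      · exact hX1 y ⟨hyC, hyb⟩
      · apply hX2 y
        simp only [Set.mem_compl_iff, Set.mem_union, Set.mem_singleton_iff, not_or]
        exact ⟨hya, hyC⟩
    rw [hHbot, Subgroup.card_bot]
    norm_num
  · exfalso
    have E : Eqv G a (lift G a r a) := by
      refine ⟨fun h => S.ne h, fun h => S.refl h, fun h => S.symm h, fun h h' => S.trans h h', ?_⟩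
      intro g hg c d h
      have := S.inv g h
      rwa [hg] at this
    rcases dich1 hp S hb hP E with hUN | ⟨T, hT, horb, h2hom⟩
    · rcases dich2 hp hΩ h2' S hab hP hH E hUN with hN | ⟨T, hT, horb, h2hom⟩
      · exact case1 hp hodd hΩ h2' S hab hP hH hN
      · exact tcase hp hodd hΩ h2' hab hP hH hT horb h2hom
    · exact tcase hp hodd hΩ h2' hab hP hH hT horb h2hom

end Cfsg.Agent.Lib.DPrimF
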