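import Mathlib
import Cfsg.Agent.Lib.DStarCore
import Cfsg.Agent.Lib.ZJCore2

/-!
# The `D*`-Theorem.
-/

set_option autoImplicit false

open Cfsg
open scoped commutatorElement

namespace Cfsg.Agent.Lib.DStarMain

open Cfsg.Agent.Lib.DStarCore Cfsg.Agent.Lib.AlperinControl Cfsg.Agent.Lib.PCore

variable {G : Type*} [Group G]

/-- The criterion for an element to act quadratically. -/
theorem quadratic_of_forall {V : Subgroup G} {a : G} (h : ∀ v ∈ V, ⁅v, a⁆ * a = a * ⁅v, a⁆) :
    ⁅⁅V, Subgroup.zpowers a⁆, Subgroup.zpowers a⁆ = ⊥ := by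
  set E := Subgroup.centralizer ({a} : Set G) with hE
  have hzE : ∀ u ∈ Subgroup.zpowers a, ∀ e ∈ E, u * e = e * u := by
    intro u hu e he
    have h1 : Subgroup.zpowers a ≤ Subgroup.centralizer ({e} : Set G) := by
      rw [Subgroup.zpowers_le, Subgroup.mem_centralizer_singleton_iff]
      have := he
      rw [hE, Subgroup.mem_centralizer_singleton_iff] at this
      exact this.symm
    have h2 := h1 hu
    rw [Subgroup.mem_centralizer_singleton_iff] at h2
    exact h2
  have hconj : ∀ u ∈ Subgroup.zpowers a, ∀ e ∈ E, u * e * u⁻¹ = e := by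
    intro u hu e he
    rw [hzE u hu e he]; group
  have h1 : ∀ v ∈ V, ∀ u ∈ Subgroup.zpowers a, ⁅v, u⁆ ∈ E := by
    intro v hv u hu
    rw [Subgroup.zpowers_eq_closure] at hu
    have hu' := hu
    induction hu using Subgroup.closure_induction with
    | mem g hg =>
      rw [Set.mem_singleton_iff.mp hg]
      rw [hE, Subgroup.mem_centralizer_singleton_iff]
      exact h v hv
    | one => simp
    | mul x y hx hy h1 h2 =>
      have e1 : ⁅v, x * y⁆ = ⁅v, x⁆ * (x * ⁅v, y⁆ * x⁻¹) := by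
        simp only [commutatorElement_def]; group
      rw [← Subgroup.zpowers_eq_closure] at hx hy
      rw [e1, hconj x hx _ (h2 (by rwa [Subgroup.zpowers_eq_closure] at hy))]
      exact E.mul_mem (h1 (by rwa [Subgroup.zpowers_eq_closure] at hx)) (h2 (by rwa [Subgroup.zpowers_eq_closure] at hy))
    | inv x hx h1 =>
      have e1 : ⁅v, x⁻¹⁆ = x⁻¹ * ⁅v, x⁆⁻¹ * x⁻¹⁻¹ := by
        simp only [commutatorElement_def]; group
      have hx2 := hx
      rw [← Subgroup.zpowers_eq_closure] at hx2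
      rw [e1, hconj x⁻¹ (Subgroup.inv_mem _ hx2) _ (E.inv_mem (h1 hx))]
      exact E.inv_mem (h1 hx)
  have h2 : ⁅V, Subgroup.zpowers a⁆ ≤ E := by
    rw [Subgroup.commutator_le]
    exact h1
  rw [eq_bot_iff, Subgroup.commutator_le]
  intro e he u hu
  rw [Subgroup.mem_bot, commutatorElement_eq_one_iff_mul_comm]
  exact (hzE u hu e (h2 he)).symm

variable {p : ℕ} [Fact p.Prime] [Finite G]

/-- **The `D*`-Theorem**, in the relative form. -/
theorem dS_normal_main (hc : Subgroup.centralizer (pCore p G : Set G) ≤ pCore p G)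
    (hst : ∀ (P : Subgroup G) [P.Normal], IsPGroup p P → IsPStableOn p P) (S : Sylow p G) :
    (dS (S : Subgroup G)).Normal := by
  classical
  set SS : Subgroup G := (S : Subgroup G) with hSS
  have hSp : IsPGroup p SS := S.isPGroup'
  set D := dS SS with hD
  have hDmem : D ∈ fam SS := dS_mem hSp
  have hDS : D ≤ SS := hDmem.1
  have hDc := hDmem.2.1
  set Q := pCore p G with hQ
  have hQS : Q ≤ SS := pCore_le_sylow p S
  have hQp : IsPGroup p Q := isPGroup_pCore p
  have hSD : ∀ s ∈ SS, ∀ d ∈ D, s * d * s⁻¹ ∈ D := fun s hs d hd =>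
    conj_mem_of_mem_NN (dS_normal hs) hd
  have hquad : ∀ V : Subgroup G, V ≤ SS → ∀ a ∈ D,
      ⁅⁅V, Subgroup.zpowers a⁆, Subgroup.zpowers a⁆ = ⊥ := by
    intro V hV a ha
    apply quadratic_of_forall
    intro v hv
    apply hDc _ _ _ ha
    rw [commutatorElement_def]
    exact D.mul_mem (hSD v (hV hv) a ha) (D.inv_mem ha)
  -- `D ≤ Q`
  have hDQ : D ≤ Q := by
    have hQn : Q.Normal := inferInstance
    have hCQn : (Subgroup.centralizer (Q : Set G)).Normal := Subgroup.normal_centralizer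
    let C := Subgroup.centralizer (Q : Set G)
    let πC : G →* G ⧸ C := QuotientGroup.mk' C
    let M : Subgroup G := (pCore p (G ⧸ C)).comap πC
    have hMn : M.Normal := Subgroup.Normal.comap inferInstance πC
    have hMp : IsPGroup p M := by
      intro m
      obtain ⟨k, hk⟩ := isPGroup_pCore (G := G ⧸ C) p ⟨πC m, m.2⟩
      have h1 : πC ((m : G) ^ p ^ k) = 1 := by
        have := congrArg Subtype.val hk
        simpa using this
      have h2 : (m : G) ^ p ^ k ∈ C := (QuotientGroup.eq_one_iff _).mp h1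
      obtain ⟨l, hl⟩ := hQp ⟨_, hc h2⟩
      refine ⟨k + l, ?_⟩
      apply Subtype.ext
      have h3 := congrArg Subtype.val hl
      simp only [Subgroup.coe_pow, Subgroup.coe_one] at h3 ⊢
      rw [pow_add, pow_mul]
      exact h3
    have hMQ : M ≤ Q := le_pCore hMn hMp
    intro a ha
    exact hMQ (hst Q hQp a (hquad Q hQS a ha))
  -- the normal closure
  set Y : Subgroup G := Subgroup.normalClosure (D : Set G) with hY
  have hYn : Y.Normal := inferInstance
  have hDY : D ≤ Y := Subgroup.le_normalClosure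
  have hYQ : Y ≤ Q := Subgroup.normalClosure_le_normal hDQ
  have hYp : IsPGroup p Y := hQp.to_le hYQ
  have hCn : (Subgroup.centralizer (Y : Set G)).Normal := Subgroup.normal_centralizer
  let C := Subgroup.centralizer (Y : Set G)
  let πC : G →* G ⧸ C := QuotientGroup.mk' C
  have hπC : Function.Surjective πC := QuotientGroup.mk'_surjective C
  let M : Subgroup G := (pCore p (G ⧸ C)).comap πC
  have hMn : M.Normal := Subgroup.Normal.comap inferInstance πC
  have hMfac : ∀ m ∈ M, ∃ d ∈ SS, ∃ c ∈ C, m = d * c := by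
    intro m hm
    have h1 := pCore_le_sylow p (S.mapSurjective hπC) hm
    rw [Sylow.coe_mapSurjective] at h1
    obtain ⟨d, hd, hdm⟩ := h1
    refine ⟨d, hd, d⁻¹ * m, ?_, by group⟩
    have h2 : πC (d⁻¹ * m) = 1 := by
      rw [map_mul, map_inv, hdm]; simp
    exact (QuotientGroup.eq_one_iff _).mp h2
  have hDM : D ≤ M := fun a ha => hst Y hYp a (hquad Y (hYQ.trans hQS) a ha)
  set R : Subgroup G := SS ⊓ M with hR
  have hRp : IsPGroup p R := hSp.to_le inf_le_left
  set E := dS R with hE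
  have hEmem : E ∈ fam R := dS_mem hRp
  have hDE : D ≤ E := le_dS (fam_restrict hDmem (le_inf hDS hDM) inf_le_left)
  have hNE : ∀ n ∈ NN R, ∀ e ∈ E, n * e * n⁻¹ ∈ E := fun n hn e he =>
    conj_mem_of_mem_NN (mem_NN_dS hn) he
  have hSR : SS ≤ NN R := fun s hs => mem_NN_of_forall fun x hx =>
    ⟨SS.mul_mem (SS.mul_mem hs hx.1) (SS.inv_mem hs), hMn.conj_mem _ hx.2 s⟩
  have hYE : Y ≤ E := by
    rw [hY, Subgroup.normalClosure, Subgroup.closure_le]
    intro y hy
    rw [Group.mem_conjugatesOfSet_iff] at hy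
    obtain ⟨d, hd, hy⟩ := hy
    obtain ⟨g, rfl⟩ := isConj_iff.mp hy
    obtain ⟨m, hm, n, hn, rfl⟩ := Cfsg.Agent.Lib.ZJCore2.exists_frattini S M g
    obtain ⟨r, hr, c, hc', rfl⟩ := hMfac m hm
    have hn' : n ∈ NN R := hn
    have hy1 : n * d * n⁻¹ ∈ E := hNE n hn' d (hDE hd)
    have hy2 : n * d * n⁻¹ ∈ Y := hYn.conj_mem d (hDY hd) n
    have hcc : c * (n * d * n⁻¹) * c⁻¹ = n * d * n⁻¹ := by
      have hc'' : c ∈ Subgroup.centralizer (Y : Set G) := hc'
      rw [Subgroup.mem_centralizer_iff] at hc''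
      rw [← hc'' _ hy2]; group
    have e1 : r * c * n * d * (r * c * n)⁻¹ = r * (c * (n * d * n⁻¹) * c⁻¹) * r⁻¹ := by group
    rw [SetLike.mem_coe, e1, hcc]
    exact hNE r (hSR hr) _ hy1
  have hEfam : E ∈ fam SS := by
    refine ⟨hEmem.1.trans inf_le_left, hEmem.2.1, fun x hx hcx a ha => ?_⟩
    have hq : ⁅⁅Y, Subgroup.zpowers x⁆, Subgroup.zpowers x⁆ = ⊥ := by
      rw [eq_bot_iff, ← hcx]
      have h1 : Y ≤ E ⊔ Subgroup.zpowers x := hYE.trans le_sup_left
      have h2 : Subgroup.zpowers x ≤ E ⊔ Subgroup.zpowers x := le_sup_right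
      exact Subgroup.commutator_mono (Subgroup.commutator_mono h1 h2) h2
    have hxM : x ∈ M := hst Y hYp x hq
    exact hEmem.2.2 x ⟨hx, hxM⟩ hcx a ha
  have hED : E ≤ D := le_dS hEfam
  have hfin : D = Y := le_antisymm hDY (hYE.trans hED)
  rw [hfin]
  exact hYn

end Cfsg.Agent.Lib.DStarMain
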