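import Mathlib
import Cfsg.Agent.Lib.Deg11Class
import Cfsg.Agent.Lib.PSL211
import Cfsg.Agent.Lib.PSL2Solub
import Cfsg.Agent.Lib.ClassicalSmall

/-!
# The classification of non-solvable transitive groups of degree eleven
-/

set_option autoImplicit false
set_option maxRecDepth 100000

namespace Cfsg.Agent.Lib.Deg11Final

open Equiv Equiv.Perm Cfsg.Agent.Lib.Deg11Eval Cfsg.Agent.Lib.Deg11Data
  Cfsg.Agent.Lib.Deg11Group Cfsg.Agent.Lib.Deg11Core Cfsg.Agent.Lib.Deg11Class MulAction

/-- The image of a group of permutations under a bijection. -/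
def Tr {α β : Type*} (e : α ≃ β) (G : Subgroup (Perm α)) : Subgroup (Perm β) :=
  G.map e.permCongrHom.toMonoidHom

theorem mem_Tr {α β : Type*} {e : α ≃ β} {G : Subgroup (Perm α)} {y : Perm β} :
    y ∈ Tr e G ↔ ∃ g ∈ G, e.permCongr g = y := by
  simp only [Tr, Subgroup.mem_map]
  rfl

theorem permCongr_apply' {α β : Type*} (e : α ≃ β) (g : Perm α) (x : α) :
    e.permCongr g (e x) = e (g x) := by
  simp [Equiv.permCongr_apply]

theorem permCongr_inj {α β : Type*} (e : α ≃ β) {g h : Perm α} (H : e.permCongr g = e.permCongr h) :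
    g = h :=
  e.permCongr.injective H

theorem Tr_trans {α β γ : Type*} (e : α ≃ β) (f : β ≃ γ) (G : Subgroup (Perm α)) :
    Tr (e.trans f) G = Tr f (Tr e G) := by
  ext y
  simp only [mem_Tr]
  constructor
  · rintro ⟨g, hg, rfl⟩
    exact ⟨e.permCongr g, ⟨g, hg, rfl⟩, by ext; simp [Equiv.permCongr_apply]⟩
  · rintro ⟨_, ⟨g, hg, rfl⟩, rfl⟩
    exact ⟨g, hg, by ext; simp [Equiv.permCongr_apply]⟩

theorem not_alt_Tr {α β : Type*} [Fintype α] [DecidableEq α] [Fintype β] [DecidableEq β] (e : α ≃ β)
    {G : Subgroup (Perm α)} (hA : ¬ alternatingGroup α ≤ G) : ¬ alternatingGroup β ≤ Tr e G := by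
  intro h
  apply hA
  intro a ha
  have h1 : e.permCongr a ∈ alternatingGroup β := by
    rw [Equiv.Perm.mem_alternatingGroup, Equiv.Perm.sign_permCongr]
    exact Equiv.Perm.mem_alternatingGroup.mp ha
  obtain ⟨g, hg, e1⟩ := mem_Tr.mp (h h1)
  rwa [← permCongr_inj e e1]

theorem not_solvable_Tr {α β : Type*} (e : α ≃ β) {G : Subgroup (Perm α)}
    (hS : ¬ Group.IsSolvable G) : ¬ Group.IsSolvable (Tr e G) := by
  intro h
  apply hS
  let E : G ≃* Tr e G := G.equivMapOfInjective e.permCongrHom.toMonoidHom e.permCongrHom.injective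
  exact Group.isSolvable_of_surjective (f := E.symm.toMonoidHom) E.symm.surjective

/-- The equivalence of a group with its image. -/
noncomputable def equivTr {α β : Type*} (e : α ≃ β) (G : Subgroup (Perm α)) : G ≃* Tr e G :=
  G.equivMapOfInjective e.permCongrHom.toMonoidHom e.permCongrHom.injective

theorem noPC_of {G : Subgroup (Perm X)} (hc : c ∈ G) (hA : ¬ alternatingGroup X ≤ G) : NoPC G := by
  intro t ht h1 h2 h3
  apply hA
  have htr : IsPretransitive G X := ⟨fun x y => ⟨⟨Equiv.addRight (y - x), addRight_mem hc _⟩, by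
    show (Equiv.addRight (y - x) : Perm X) x = y
    simp⟩⟩
  have hprim : IsPreprimitive G X := IsPreprimitive.of_prime_card (by
    rw [Nat.card_eq_fintype_card, ZMod.card]
    norm_num)
  exact Cfsg.Agent.Lib.JordanPrimeCycle.alternatingGroup_le_of_cycle hprim h1 h2 h3 ht

theorem orderOf_c : orderOf c = 11 := by
  have h1 : c ^ 11 = 1 := Equiv.ext fun x => by
    rw [c_pow]
    have : ((11 : ℕ) : X) = 0 := by decide
    rw [this, add_zero]
    rfl
  have h2 : c ≠ 1 := by
    intro e
    have := congrArg (fun f : Perm X => f 0) e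
    revert this
    decide
  exact orderOf_eq_prime h1 h2

theorem negP_inv : negP⁻¹ = negP := Equiv.ext fun x => by
  rw [Perm.inv_eq_iff_eq]
  simp

/-- The classification for groups containing the translation. -/
theorem classifyX (G : Subgroup (Perm X)) (hc : c ∈ G) (hS : ¬ Group.IsSolvable G)
    (hA : ¬ alternatingGroup X ≤ G) :
    G = U1 ∨ G = U0 ∨ Tr negP G = U1 ∨ Tr negP G = U0 := by
  have hno := noPC_of hc hA
  obtain ⟨h, hh, h2, hne, hna⟩ := exists_nonaffine G hc hS
  have hpow : h ^ 2 ^ 1 = 1 := by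
    rw [pow_one, pow_two]
    exact h2
  obtain ⟨p, hp⟩ := Equiv.Perm.exists_fixed_point_of_prime (p := 2) (n := 1)
    (by rw [ZMod.card]; norm_num) hpow
  set A : Perm X := Equiv.addRight (-p) with hAdef
  have hAG : A ∈ G := addRight_mem hc _
  set h' : Perm X := A * h * A⁻¹ with hh'
  have hh'G : h' ∈ G := G.mul_mem (G.mul_mem hAG hh) (G.inv_mem hAG)
  have hh'2 : h' * h' = 1 := by
    rw [hh']
    calc A * h * A⁻¹ * (A * h * A⁻¹) = A * (h * h) * A⁻¹ := by group
      _ = 1 := by rw [h2]; group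
  have hh'0 : h' 0 = 0 := by
    rw [hh', Perm.mul_apply, Perm.mul_apply]
    have h1 : A⁻¹ 0 = p := by
      rw [Perm.inv_eq_iff_eq, hAdef]
      simp
    rw [h1, hp, hAdef]
    simp
  have hAinv : A⁻¹ = Equiv.addRight p := Equiv.ext fun x => by
    rw [Perm.inv_eq_iff_eq, hAdef]
    simp
  have hna' : ¬ Aff h' := by
    intro ha
    apply hna
    have e : h = A⁻¹ * h' * A := by rw [hh']; group
    rw [e, hAinv]
    exact ((aff_addRight p).mul ha).mul (aff_addRight (-p))
  rcases scan_cases hno hc hh'G hh'2 hh'0 with e | e | e | e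
  · exfalso
    apply hna'
    rw [e]
    exact ⟨1, 0, one_ne_zero, fun x => by simp⟩
  · exfalso
    apply hna'
    have e2 : h' = negP := (rep_code h').ext (by rw [e]; exact rep_negP)
    rw [e2]
    exact aff_negP
  · rcases main_core G hno hc hh'G (rep_code h') e with h | h
    · exact Or.inl h
    · exact Or.inr (Or.inl h)
  · -- conjugate by negation
    have hcneg : c ∈ Tr negP G := by
      refine mem_Tr.mpr ⟨c⁻¹, G.inv_mem hc, ?_⟩
      ext x
      rw [Equiv.permCongr_eq_mul, negP_inv, Perm.mul_apply, Perm.mul_apply]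
      have : c⁻¹ (negP x) = -x - 1 := by
        rw [Perm.inv_eq_iff_eq]
        simp
      rw [this]
      simp only [Equiv.coe_addRight, Equiv.neg_apply]
      ring
    have hAneg := not_alt_Tr negP hA
    have hnoneg := noPC_of hcneg hAneg
    have h3 : negP * h' * negP ∈ Tr negP G := by
      refine mem_Tr.mpr ⟨h', hh'G, ?_⟩
      rw [Equiv.permCongr_eq_mul, negP_inv]
    have hr : PRep (negP * h' * negP) (Deg11Eval.comp (Deg11Eval.comp negN (code h')) negN) :=
      (rep_negP.mul (rep_code h')).mul rep_negP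
    have hmem := List.all_eq_true.mp check_E2 _ e
    have hmem' : Deg11Eval.comp (Deg11Eval.comp negN (code h')) negN ∈ E1 := by
      unfold memN at hmem
      rw [List.any_eq_true] at hmem
      obtain ⟨x, hx, e'⟩ := hmem
      rwa [Nat.eq_of_beq_eq_true e']
    rcases main_core (Tr negP G) hnoneg hcneg h3 hr hmem' with h | h
    · exact Or.inr (Or.inr (Or.inl h))
    · exact Or.inr (Or.inr (Or.inr h))

/-- The classification, in general. -/
theorem classify {α : Type*} [Fintype α] [DecidableEq α] (hα : Fintype.card α = 11)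
    (G : Subgroup (Perm α)) (htr : IsPretransitive G α) (hS : ¬ Group.IsSolvable G)
    (hA : ¬ alternatingGroup α ≤ G) : ∃ e : α ≃ X, Tr e G = U1 ∨ Tr e G = U0 := by
  classical
  have hcard : Nat.card α = 11 := by rw [Nat.card_eq_fintype_card, hα]
  obtain ⟨e₀⟩ : Nonempty (α ≃ X) := Fintype.card_eq.mp (by rw [hα, ZMod.card])
  -- an element of order eleven
  have hdvd : 11 ∣ Nat.card G := by
    have : Nonempty α := by
      apply Fintype.card_pos_iff.mp
      omega
    obtain ⟨a⟩ := (inferInstance : Nonempty α)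
    have h1 := MulAction.index_stabilizer_of_transitive G a
    rw [hcard] at h1
    rw [← h1]
    exact Subgroup.index_dvd_card _
  obtain ⟨x, hx⟩ := exists_prime_orderOf_dvd_card' (G := G) 11 hdvd
  set y : Perm X := e₀.permCongr (x : Perm α) with hy
  have hyo : orderOf y = 11 := by
    rw [hy, ← hx]
    have h1 : orderOf (e₀.permCongrHom (x : Perm α)) = orderOf (x : Perm α) :=
      orderOf_injective e₀.permCongrHom.toMonoidHom e₀.permCongrHom.injective _
    rw [Subgroup.orderOf_coe] at h1
    exact h1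
  have hcyc : ∀ z : Perm X, orderOf z = 11 → z.cycleType = {11} := by
    intro z hz
    obtain ⟨n, hn⟩ := cycleType_prime_order (σ := z) (by rw [hz]; norm_num)
    have h1 := sum_cycleType z
    have h2 : z.support.card ≤ 11 := by
      have := Finset.card_le_univ z.support
      rwa [ZMod.card] at this
    rw [hn, hz, Multiset.sum_replicate] at h1
    have hn0 : n = 0 := by
      simp only [smul_eq_mul] at h1
      omega
    rw [hn, hz, hn0]
    rfl
  have hconj : IsConj y c := by
    rw [isConj_iff_cycleType_eq, hcyc y hyo, hcyc c orderOf_c]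
  obtain ⟨σ, hσ⟩ := isConj_iff.mp hconj
  set e : α ≃ X := e₀.trans σ with he
  have hcmem : c ∈ Tr e G := by
    refine mem_Tr.mpr ⟨x, x.2, ?_⟩
    rw [← hσ, he, ← Equiv.permCongr_eq_mul, hy]
    ext z
    simp [Equiv.permCongr_apply]
  rcases classifyX (Tr e G) hcmem (not_solvable_Tr e hS) (not_alt_Tr e hA) with h | h | h | h
  · exact ⟨e, Or.inl h⟩
  · exact ⟨e, Or.inr h⟩
  · exact ⟨e.trans negP, Or.inl (by rw [Tr_trans]; exact h)⟩
  · exact ⟨e.trans negP, Or.inr (by rw [Tr_trans]; exact h)⟩

open Cfsg.Agent.Lib.PSL211 in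
theorem card_G11 : Nat.card G11 = 660 := by
  have h := Cfsg.Agent.Lib.ClassicalSmall.card_PSL2 (F := ZMod 11)
  rw [ZMod.card] at h
  have e : Nat.gcd 2 (11 - 1) = 2 := by decide
  rw [e] at h
  have h' : 2 * Nat.card G11 = 1320 := h
  omega

theorem card_U0 : Nat.card U0 = 7920 := by
  rw [U0_eq]
  exact sharp.1.2

open Cfsg.Agent.Lib.PSL211 Matrix in
/-- The subgroup `U1` is the projective special linear group. -/
theorem iso_U1 : Nonempty (U1 ≃* G11) := by
  classical
  obtain ⟨φ₁, -, h1, -⟩ := exists_phi_eval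
  have htrans : ∀ x : Fin 11, ∃ g : G11, φ₁ g 0 = x := by
    intro x
    refine ⟨QuotientGroup.mk (mkSL (uu (r1 x)) (qdet_uu _)), Fin.ext ?_⟩
    rw [h1, qof_mkSL]
    exact checkTrans1 x
  have hinj : Function.Injective φ₁ := by
    have hker := (IsSimpleGroup.eq_bot_or_eq_top_of_normal (MonoidHom.ker φ₁) inferInstance)
    rcases hker with h | h
    · exact (MonoidHom.ker_eq_bot_iff φ₁).mp h
    · exfalso
      obtain ⟨g, hg⟩ := htrans 1
      have : g ∈ MonoidHom.ker φ₁ := by rw [h]; trivial
      rw [MonoidHom.mem_ker] at this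
      rw [this] at hg
      revert hg
      decide
  set H : Subgroup (Perm (Fin 11)) := φ₁.range with hH
  let E : G11 ≃* H := MonoidHom.ofInjective hinj
  have hcardH : Nat.card H = 660 := by
    rw [← Nat.card_congr E.toEquiv, card_G11]
  have htr : IsPretransitive H (Fin 11) := by
    have h0 : ∀ x : Fin 11, ∃ g : H, (g : Perm (Fin 11)) 0 = x := fun x => by
      obtain ⟨g, hg⟩ := htrans x
      exact ⟨E g, hg⟩
    refine ⟨fun x y => ?_⟩
    obtain ⟨g, hg⟩ := h0 x
    obtain ⟨g', hg'⟩ := h0 y
    refine ⟨g' * g⁻¹, ?_⟩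
    show ((g' * g⁻¹ : H) : Perm (Fin 11)) x = y
    rw [Subgroup.coe_mul, Perm.mul_apply, Subgroup.coe_inv, ← hg, (g : Perm (Fin 11)).symm_apply_apply 0 |> fun e => (show (g : Perm (Fin 11))⁻¹ ((g : Perm (Fin 11)) 0) = 0 from e), hg']
  have hS : ¬ Group.IsSolvable H := by
    intro h
    apply Cfsg.Agent.Lib.PSL2Solub.not_solvable_PSL2 (F := ZMod 11) (by rw [ZMod.card]; norm_num)
    exact Group.isSolvable_of_surjective (f := E.symm.toMonoidHom) E.symm.surjective
  have hA : ¬ alternatingGroup (Fin 11) ≤ H := by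
    intro h
    have h1 : Nat.card (alternatingGroup (Fin 11)) ≤ Nat.card H := Subgroup.card_le_of_le h
    have h2 := two_mul_nat_card_alternatingGroup (α := Fin 11)
    rw [Nat.card_eq_fintype_card (α := Perm (Fin 11)), Fintype.card_perm, Fintype.card_fin] at h2
    rw [hcardH] at h1
    have h3 : Nat.factorial 11 = 39916800 := by decide
    omega
  obtain ⟨e, h | h⟩ := classify (Fintype.card_fin 11) H htr hS hA
  · refine ⟨?_⟩
    have E2 := equivTr e H
    rw [h] at E2
    exact E2.symm.trans E.symm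
  · exfalso
    have h1 := Nat.card_congr (equivTr e H).toEquiv
    rw [h, card_U0, hcardH] at h1
    omega

/-- The main theorem. -/
theorem main {α : Type*} [Fintype α] [DecidableEq α] (hα : Fintype.card α = 11) (G : Subgroup (Perm α))
    [htr : IsPretransitive G α] (hG : ¬ Group.IsSolvable G) (hA : ¬ alternatingGroup α ≤ G) :
    (IsMultiplyPretransitive G α 4 ∧ ∀ x : Fin 4 ↪ α, stabilizer G x = ⊥) ∨
      Nonempty (G ≃* Matrix.ProjectiveSpecialLinearGroup (Fin 2) (ZMod 11)) := by
  obtain ⟨e, h | h⟩ := classify hα G htr hG hA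
  · right
    obtain ⟨E⟩ := iso_U1
    have E2 := equivTr e G
    rw [h] at E2
    exact ⟨E2.trans E⟩
  · left
    rw [U0_eq] at h
    have hmem : ∀ g : Cfsg.setSystemAut B1, ∃ g' ∈ G, e.permCongr g' = g := by
      intro g
      have : (g : Perm X) ∈ Tr e G := by rw [h]; exact g.2
      exact mem_Tr.mp this
    have hmem' : ∀ g ∈ G, e.permCongr g ∈ Cfsg.setSystemAut B1 := by
      intro g hg
      rw [← h]
      exact mem_Tr.mpr ⟨g, hg, rfl⟩
    have hemb : ∀ x : Fin 4 ↪ α, ∀ i, (x.trans e.toEmbedding) i = e (x i) := fun _ _ => rfl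
    constructor
    · refine ⟨fun x y => ?_⟩
      obtain ⟨m, hm⟩ := sharp.2.1.exists_smul_eq (x.trans e.toEmbedding) (y.trans e.toEmbedding)
      obtain ⟨g, hg, hgm⟩ := hmem m
      refine ⟨⟨g, hg⟩, ?_⟩
      ext i
      have h1 := congrArg (fun f : Fin 4 ↪ X => f i) hm
      have h2 : (m : Perm X) (e (x i)) = e (y i) := h1
      rw [← hgm, permCongr_apply'] at h2
      exact e.injective h2
    · intro x
      rw [eq_bot_iff]
      intro g hg
      rw [Subgroup.mem_bot]
      have hg' : (⟨e.permCongr (g : Perm α), hmem' g g.2⟩ : Cfsg.setSystemAut B1) ∈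
          stabilizer (Cfsg.setSystemAut B1) (x.trans e.toEmbedding) := by
        rw [mem_stabilizer_iff]
        ext i
        have h1 : g • x = x := mem_stabilizer_iff.mp hg
        have h2 : (g : Perm α) (x i) = x i := congrArg (fun f : Fin 4 ↪ α => f i) h1
        show e.permCongr (g : Perm α) (e (x i)) = e (x i)
        rw [permCongr_apply', h2]
      rw [sharp.2.2, Subgroup.mem_bot] at hg'
      have h3 : e.permCongr (g : Perm α) = 1 := congrArg Subtype.val hg'
      apply Subtype.ext
      apply permCongr_inj e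
      rw [h3]
      ext z
      simp [Equiv.permCongr_apply]

end Cfsg.Agent.Lib.Deg11Final
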