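import Mathlib

/-! First-order lemmas about two-point stabilizers in 2-transitive groups
(for the derangement bound). -/

set_option autoImplicit false
open Finset MulAction

namespace Cfsg.Agent.Lib.DerTwoA

section basics
variable (G : Type*) {Ω : Type*} [Group G] [MulAction G Ω]

/-- two-point stabilizer -/
def S2 (a c : Ω) : Subgroup G := stabilizer G a ⊓ stabilizer G c

variable {G}

@[simp] theorem mem_S2 {a c : Ω} {g : G} : g ∈ S2 G a c ↔ g • a = a ∧ g • c = c := by
  simp [S2, Subgroup.mem_inf, mem_stabilizer_iff]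

theorem conj_mem_S2 {a c : Ω} {g : G} (k : G) (hg : g ∈ S2 G a c) :
    k * g * k⁻¹ ∈ S2 G (k • a) (k • c) := by
  rw [mem_S2] at hg ⊢
  constructor
  · simp [mul_smul, hg.1]
  · simp [mul_smul, hg.2]

theorem conj_inv_mem_S2 {a c : Ω} {g : G} (k : G) (hg : g ∈ S2 G (k • a) (k • c)) :
    k⁻¹ * g * k ∈ S2 G a c := by
  have := conj_mem_S2 k⁻¹ hg
  simpa using this

theorem card_S2_smul (a c : Ω) (k : G) : Nat.card (S2 G (k • a) (k • c)) = Nat.card (S2 G a c) := by
  refine (Nat.card_congr (Equiv.subtypeEquiv (MulAut.conj k).toEquiv ?_)).symm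
  intro g
  constructor
  · intro hg
    exact conj_mem_S2 k hg
  · intro hg
    have := conj_inv_mem_S2 k hg
    simpa [mul_assoc] using this

/-- 2-transitivity, first order. -/
def TwoTrans (G : Type*) (Ω : Type*) [Group G] [MulAction G Ω] : Prop :=
  ∀ a c a' c' : Ω, a ≠ c → a' ≠ c' → ∃ k : G, k • a = a' ∧ k • c = c'

theorem card_S2_eq (ht : TwoTrans G Ω) {a c a' c' : Ω} (h : a ≠ c) (h' : a' ≠ c') :
    Nat.card (S2 G a c) = Nat.card (S2 G a' c') := by
  obtain ⟨k, rfl, rfl⟩ := ht a c a' c' h h'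
  exact (card_S2_smul a c k).symm

theorem S2_eq_of_le [Finite G] (ht : TwoTrans G Ω) {a c a' c' : Ω} (h : a ≠ c) (h' : a' ≠ c')
    (hle : S2 G a c ≤ S2 G a' c') : S2 G a c = S2 G a' c' :=
  Subgroup.eq_of_le_of_card_ge hle (card_S2_eq ht h' h).le

theorem S2_comm (a c : Ω) : S2 G a c = S2 G c a := by
  ext g; simp [and_comm]

end basics

section all2
variable {G Ω : Type*} [Group G] [MulAction G Ω] [FaithfulSMul G Ω] [Finite G]

/-- all orbits of two-point stabilizers have size at most 2. -/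
def H2 (G : Type*) (Ω : Type*) [Group G] [MulAction G Ω] : Prop :=
  ∀ a c : Ω, a ≠ c → ∀ g ∈ S2 G a c, ∀ h ∈ S2 G a c, ∀ x : Ω,
    g • x = x ∨ h • x = x ∨ g • x = h • x

theorem H2.mul_self (h2 : H2 G Ω) {a c : Ω} (hac : a ≠ c) {g : G} (hg : g ∈ S2 G a c) :
    g * g = 1 := by
  apply FaithfulSMul.eq_of_smul_eq_smul (α := Ω)
  intro x
  rw [one_smul, mul_smul]
  rcases h2 a c hac g hg g⁻¹ (Subgroup.inv_mem _ hg) x with h | h | h
  · rw [h, h]
  · have : x = g • x := inv_smul_eq_iff.1 h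
    rw [← this, ← this]
  · rw [h]; simp

theorem H2.comm (h2 : H2 G Ω) {a c : Ω} (hac : a ≠ c) {g h : G} (hg : g ∈ S2 G a c)
    (hh : h ∈ S2 G a c) : g * h = h * g := by
  have h1 := h2.mul_self hac (Subgroup.mul_mem _ hg hh)
  have h3 := h2.mul_self hac hg
  have h4 := h2.mul_self hac hh
  have : g * h * (h * g) = 1 := by
    calc g * h * (h * g) = g * (h * h) * g := by group
      _ = 1 := by rw [h4, mul_one, h3]
  calc g * h = g * h * ((g * h) * (h * g)) * 1 := by
        rw [mul_one, this]; simp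
    _ = (g * h) * (g * h) * (h * g) := by group
    _ = h * g := by rw [h1, one_mul]

theorem H2.move (h2 : H2 G Ω) {a c p : Ω} (hac : a ≠ c) {u w : G} (hu : u ∈ S2 G a c)
    (hw : w ∈ S2 G a c) (hwp : w • p ≠ p) :
    ∃ u' ∈ S2 G a c, u' • p = w • p ∧ (u' = u ∨ u' = u * w) := by
  have hww := h2.mul_self hac hw
  by_cases hup : u • p = p
  · refine ⟨u * w, Subgroup.mul_mem _ hu hw, ?_, Or.inr rfl⟩
    rw [mul_smul]
    rcases h2 a c hac u hu w hw (w • p) with h | h | h
    · exact h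
    · rw [← mul_smul, hww, one_smul] at h
      exact absurd h.symm hwp
    · rw [← mul_smul w w, hww, one_smul] at h
      have := smul_left_cancel u (h.trans hup.symm)
      exact absurd this hwp
  · refine ⟨u, hu, ?_, Or.inl rfl⟩
    rcases h2 a c hac u hu w hw p with h | h | h
    · exact absurd h hup
    · exact absurd h hwp
    · exact h

/-- The commuting lemma. -/
theorem H2.key (h2 : H2 G Ω) {a c γ : Ω} (hac : a ≠ c) (haγ : a ≠ γ) {w : G} (hw : w ∈ S2 G a c)
    (hw1 : w ≠ 1) (hwγ : w • γ = γ) {y z : G} (hy : y ∈ S2 G a c) (hz : z ∈ S2 G a γ) :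
    y * z = z * y := by
  have hw' : w ∈ S2 G a γ := by
    rw [mem_S2] at hw ⊢
    exact ⟨hw.1, hwγ⟩
  obtain ⟨p, hp⟩ : ∃ p : Ω, w • p ≠ p := by
    by_contra hcon
    push Not at hcon
    apply hw1
    apply FaithfulSMul.eq_of_smul_eq_smul (α := Ω)
    intro x
    simp [hcon x]
  have hap : a ≠ p := by
    rintro rfl
    exact hp (mem_S2.1 hw).1
  obtain ⟨y', hy', hyp, hyy⟩ := h2.move hac hy hw hp
  obtain ⟨z', hz', hzp, hzz⟩ := h2.move haγ hz hw' hp
  have hww := h2.mul_self hac hw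
  have hy'y' := h2.mul_self hac hy'
  have hfix : (y' * z') ∈ S2 G a p := by
    rw [mem_S2]
    constructor
    · rw [mul_smul, (mem_S2.1 hz').1, (mem_S2.1 hy').1]
    · rw [mul_smul, hzp, ← hyp, ← mul_smul, hy'y', one_smul]
  have hsq := h2.mul_self hap hfix
  have hzz' := h2.mul_self haγ hz'
  have hcomm : y' * z' = z' * y' := by
    have : y' * z' * (z' * y') = 1 := by
      calc y' * z' * (z' * y') = y' * (z' * z') * y' := by group
        _ = 1 := by rw [hzz', mul_one, hy'y']
    calc y' * z' = y' * z' * ((y' * z') * (z' * y')) * 1 := by rw [this]; simp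
      _ = (y' * z') * (y' * z') * (z' * y') := by group
      _ = z' * y' := by rw [hsq, one_mul]
  have hwy : w * y = y * w := h2.comm hac hw hy
  have hwz : w * z = z * w := h2.comm haγ hw' hz
  rcases hyy with hy1 | hy1 <;> rcases hzz with hz1 | hz1 <;> rw [hy1, hz1] at hcomm
  · exact hcomm
  · -- y * (z * w) = (z * w) * y
    have : y * z * w = z * y * w := by
      calc y * z * w = y * (z * w) := by group
        _ = z * w * y := hcomm
        _ = z * (w * y) := by group
        _ = z * (y * w) := by rw [hwy]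
        _ = z * y * w := by group
    exact mul_right_cancel this
  · have : y * z * w = z * y * w := by
      calc y * z * w = y * (z * w) := by group
        _ = y * (w * z) := by rw [hwz]
        _ = y * w * z := by group
        _ = z * (y * w) := hcomm
        _ = z * y * w := by group
    exact mul_right_cancel this
  · have hc : (y * w) * (z * w) = y * z := by
      calc (y * w) * (z * w) = y * (w * z) * w := by group
        _ = y * (z * w) * w := by rw [hwz]
        _ = y * z * (w * w) := by group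
        _ = y * z := by rw [hww, mul_one]
    have hd : (z * w) * (y * w) = z * y := by
      calc (z * w) * (y * w) = z * (w * y) * w := by group
        _ = z * (y * w) * w := by rw [hwy]
        _ = z * y * (w * w) := by group
        _ = z * y := by rw [hww, mul_one]
    rw [← hc, ← hd]
    exact hcomm

/-- If all orbits of two-point stabilizers have size ≤ 2 then two-point stabilizers have order ≤ 2. -/
theorem H2.card_le (ht : TwoTrans G Ω) (h2 : H2 G Ω) {α β : Ω} (hαβ : α ≠ β) :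
    Nat.card (S2 G α β) ≤ 2 := by
  by_contra hcard
  push Not at hcard
  classical
  -- a nontrivial element
  obtain ⟨u, hu, hu1⟩ : ∃ u ∈ S2 G α β, u ≠ 1 := by
    by_contra hcon
    push Not at hcon
    have : S2 G α β = ⊥ := by
      rw [eq_bot_iff]
      intro g hg
      simpa using hcon g hg
    rw [this] at hcard
    simp at hcard
  obtain ⟨p, hp⟩ : ∃ p : Ω, u • p ≠ p := by
    by_contra hcon
    push Not at hcon
    apply hu1
    apply FaithfulSMul.eq_of_smul_eq_smul (α := Ω)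
    intro x
    simp [hcon x]
  obtain ⟨v, hv, hv1, hvu⟩ : ∃ v ∈ S2 G α β, v ≠ 1 ∧ v ≠ u := by
    by_contra hcon
    push Not at hcon
    have hsub : ((S2 G α β : Subgroup G) : Set G) ⊆ ({1, u} : Finset G) := by
      intro g hg
      by_cases hg1 : g = 1
      · simp [hg1]
      · simp [hcon g hg hg1]
    have h1 := Set.ncard_le_ncard hsub (Finset.finite_toSet _)
    rw [Set.ncard_coe_finset] at h1
    have h3 : ({1, u} : Finset G).card ≤ 2 := Finset.card_le_two
    have h4 : Nat.card (S2 G α β) = ((S2 G α β : Subgroup G) : Set G).ncard := by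
      rw [← Nat.card_coe_set_eq]; rfl
    omega
  obtain ⟨w, hw, hw1, hwp⟩ : ∃ w ∈ S2 G α β, w ≠ 1 ∧ w • p = p := by
    by_cases hvp : v • p = p
    · exact ⟨v, hv, hv1, hvp⟩
    · refine ⟨u⁻¹ * v, Subgroup.mul_mem _ (Subgroup.inv_mem _ hu) hv, ?_, ?_⟩
      · intro h
        apply hvu
        rw [inv_mul_eq_one] at h
        exact h.symm
      · rcases h2 α β hαβ u hu v hv p with h | h | h
        · exact absurd h hp
        · exact absurd h hvp
        · rw [mul_smul, ← h]; simp
  have hαp : α ≠ p := by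
    rintro rfl
    exact hp (mem_S2.1 hu).1
  have hβp : β ≠ p := by
    rintro rfl
    exact hp (mem_S2.1 hu).2
  have hβα : β ≠ α := hαβ.symm
  have hc1 : ∀ z ∈ S2 G α p, u * z = z * u := fun z hz => h2.key hαβ hαp hw hw1 hwp hu hz
  have hc2 : ∀ z ∈ S2 G β p, u * z = z * u := by
    intro z hz
    rw [S2_comm] at hw hu
    exact h2.key hβα hβp hw hw1 hwp hu hz
  have hpp' : p ≠ u • p := hp.symm
  have hle1 : S2 G α p ≤ S2 G p (u • p) := by
    intro z hz
    rw [mem_S2]
    refine ⟨(mem_S2.1 hz).2, ?_⟩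
    rw [← mul_smul, ← hc1 z hz, mul_smul, (mem_S2.1 hz).2]
  have hle2 : S2 G β p ≤ S2 G p (u • p) := by
    intro z hz
    rw [mem_S2]
    refine ⟨(mem_S2.1 hz).2, ?_⟩
    rw [← mul_smul, ← hc2 z hz, mul_smul, (mem_S2.1 hz).2]
  have e1 := S2_eq_of_le ht hαp hpp' hle1
  have e2 := S2_eq_of_le ht hβp hpp' hle2
  have e3 : S2 G α p = S2 G β p := e1.trans e2.symm
  have hle3 : S2 G α p ≤ S2 G α β := by
    intro z hz
    rw [mem_S2]
    refine ⟨(mem_S2.1 hz).1, ?_⟩
    rw [e3] at hz
    exact (mem_S2.1 hz).1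
  have e4 := S2_eq_of_le ht hαp hαβ hle3
  rw [← e4] at hu
  exact hp (mem_S2.1 hu).2

end all2

section three
variable {G Ω : Type*} [Group G] [MulAction G Ω]

/-- all orbits of two-point stabilizers have size at most 3. -/
def H3 (G : Type*) (Ω : Type*) [Group G] [MulAction G Ω] : Prop :=
  ∀ a c : Ω, a ≠ c → ∀ x : Ω, ∀ g₁ ∈ S2 G a c, ∀ g₂ ∈ S2 G a c, ∀ g₃ ∈ S2 G a c,
    ¬ (x ≠ g₁ • x ∧ x ≠ g₂ • x ∧ x ≠ g₃ • x ∧ g₁ • x ≠ g₂ • x ∧ g₁ • x ≠ g₃ • x ∧ g₂ • x ≠ g₃ • x)

theorem no_three_cycle [Fintype Ω] (ht : TwoTrans G Ω) (h3 : H3 G Ω) (hn : 7 ≤ Fintype.card Ω)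
    {e : G} (he3 : e ^ 3 = 1) {p : Ω} (hp : e • p ≠ p)
    (hsupp : ∀ x : Ω, e • x ≠ x → x = p ∨ x = e • p ∨ x = e • e • p) : False := by
  classical
  have he3' : ∀ x : Ω, e • e • e • x = x := by
    intro x
    rw [← mul_smul, ← mul_smul, ← pow_three', he3, one_smul]
  set p₂ := e • p with hp₂
  set p₃ := e • p₂ with hp₃
  have h12 : p ≠ p₂ := hp.symm
  have h23 : p₂ ≠ p₃ := by
    intro h
    apply hp
    exact (smul_left_cancel e (show e • p₂ = e • p by rw [← hp₃, ← h])).symm ▸ rfl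
  have h13 : p ≠ p₃ := by
    intro h
    apply hp
    have := he3' p
    rw [← hp₂, ← hp₃, ← h] at this
    exact this
  -- choose q
  obtain ⟨q, hq⟩ : ∃ q : Ω, q ∉ ({p, p₂, p₃} : Finset Ω) := by
    by_contra hcon
    push Not at hcon
    have : (univ : Finset Ω) ⊆ {p, p₂, p₃} := fun x _ => hcon x
    have h1 := Finset.card_le_card this
    have h2 : ({p, p₂, p₃} : Finset Ω).card ≤ 3 := Finset.card_le_three
    rw [Finset.card_univ] at h1
    omega
  simp only [mem_insert, mem_singleton, not_or] at hq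
  obtain ⟨hq1, hq2, hq3⟩ := hq
  obtain ⟨k, hk1, hk2⟩ := ht p p₂ p q h12 (Ne.symm hq1)
  set Y : Finset Ω := {p, p₂, p₃, q, k • p₃} with hY
  have hYcard : Y.card ≤ 5 := by
    have h1 : Y.card ≤ ({p₂, p₃, q, k • p₃} : Finset Ω).card + 1 := Finset.card_insert_le _ _
    have h2 : ({p₂, p₃, q, k • p₃} : Finset Ω).card ≤ 4 := Finset.card_le_four
    omega
  obtain ⟨x, y, hx, hy, hxy⟩ : ∃ x y : Ω, x ∉ Y ∧ y ∉ Y ∧ x ≠ y := by
    have h1 : 1 < (Yᶜ).card := by
      rw [Finset.card_compl]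
      omega
    obtain ⟨x, hx, y, hy, hxy⟩ := Finset.one_lt_card.1 h1
    exact ⟨x, y, by simpa using hx, by simpa using hy, hxy⟩
  have hfixY : ∀ z : Ω, z ∉ Y → e • z = z := by
    intro z hz
    by_contra hcon
    rcases hsupp z hcon with h | h | h
    · apply hz; rw [h]; simp [hY]
    · apply hz; rw [h]; simp [hY, hp₂]
    · apply hz; rw [h]; simp [hY, hp₂, hp₃]
  have hfix' : ∀ z : Ω, z ∉ Y → (k * e * k⁻¹) • z = z := by
    intro z hz
    have : e • (k⁻¹ • z) = k⁻¹ • z := by
      by_contra hcon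
      rcases hsupp _ hcon with h | h | h
      · apply hz
        have : z = k • p := by rw [← h]; simp
        rw [this, hk1]; simp [hY]
      · apply hz
        have : z = k • p₂ := by rw [← h]; simp
        rw [this, hk2]; simp [hY]
      · apply hz
        have : z = k • p₃ := by rw [← h]; simp
        rw [this]; simp [hY]
    rw [mul_smul, mul_smul, this]; simp
  have hemem : e ∈ S2 G x y := mem_S2.2 ⟨hfixY x hx, hfixY y hy⟩
  have he2mem : e * e ∈ S2 G x y := Subgroup.mul_mem _ hemem hemem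
  have hconj : k * e * k⁻¹ ∈ S2 G x y := mem_S2.2 ⟨hfix' x hx, hfix' y hy⟩
  apply h3 x y hxy p e hemem (e * e) he2mem (k * e * k⁻¹) hconj
  have hqval : (k * e * k⁻¹) • p = q := by
    have hkp : k⁻¹ • p = p := by
      rw [inv_smul_eq_iff, hk1]
    rw [mul_smul, mul_smul, hkp, ← hp₂, hk2]
  have h2val : (e * e) • p = p₃ := by rw [mul_smul]
  rw [hqval, h2val]
  exact ⟨h12, h13, Ne.symm hq1, h23, Ne.symm hq2, Ne.symm hq3⟩

end three

section lines
variable {G Ω : Type*} [Group G] [MulAction G Ω] [FaithfulSMul G Ω] [Finite G] [Fintype Ω]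

open Classical in
/-- the line through two points: the fixed points of the two-point stabilizer. -/
noncomputable def Ln (G : Type*) {Ω : Type*} [Group G] [MulAction G Ω] [Fintype Ω] (a c : Ω) :
    Finset Ω :=
  univ.filter (fun x => ∀ g ∈ S2 G a c, g • x = x)

omit [FaithfulSMul G Ω] [Finite G] in
theorem mem_Ln {a c x : Ω} : x ∈ Ln G a c ↔ ∀ g ∈ S2 G a c, g • x = x := by
  simp [Ln]

omit [FaithfulSMul G Ω] [Finite G] in
theorem left_mem_Ln (a c : Ω) : a ∈ Ln G a c := by
  rw [mem_Ln]; intro g hg; exact (mem_S2.1 hg).1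

omit [FaithfulSMul G Ω] [Finite G] in
theorem right_mem_Ln (a c : Ω) : c ∈ Ln G a c := by
  rw [mem_Ln]; intro g hg; exact (mem_S2.1 hg).2

omit [FaithfulSMul G Ω] [Finite G] in
theorem card_Ln_eq (ht : TwoTrans G Ω) {a c a' c' : Ω} (h : a ≠ c) (h' : a' ≠ c') :
    (Ln G a c).card = (Ln G a' c').card := by
  obtain ⟨k, rfl, rfl⟩ := ht a c a' c' h h'
  symm
  refine Finset.card_bij (fun x _ => k⁻¹ • x) ?_ ?_ ?_
  · intro x hx
    rw [mem_Ln] at hx ⊢
    intro g hg
    have := hx (k * g * k⁻¹) (conj_mem_S2 k hg)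
    simp only [mul_smul] at this
    rw [← smul_left_cancel_iff k]
    rw [← mul_smul g k⁻¹ x]
    simpa [mul_smul] using this
  · intro x _ y _ h
    exact smul_left_cancel _ h
  · intro x hx
    refine ⟨k • x, ?_, by simp⟩
    rw [mem_Ln] at hx ⊢
    intro g hg
    have := hx (k⁻¹ * g * k) (conj_inv_mem_S2 k hg)
    simp only [mul_smul] at this
    rw [← smul_left_cancel_iff k⁻¹]
    simpa [mul_smul] using this

omit [FaithfulSMul G Ω] [Fintype Ω] in
theorem S2_eq_of_fixes (ht : TwoTrans G Ω) {a c x y : Ω} (hac : a ≠ c) (hxy : x ≠ y)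
    (hx : ∀ g ∈ S2 G a c, g • x = x) (hy : ∀ g ∈ S2 G a c, g • y = y) :
    S2 G a c = S2 G x y := by
  apply S2_eq_of_le ht hac hxy
  intro g hg
  exact mem_S2.2 ⟨hx g hg, hy g hg⟩

/-- number of fixed points (finset form). -/
noncomputable def fx {G Ω : Type*} [Group G] [MulAction G Ω] [Fintype Ω] (g : G) : ℕ := by
  classical exact (univ.filter (fun x : Ω => g • x = x)).card

omit [FaithfulSMul G Ω] [Finite G] in
open Classical in
theorem fx_eq (g : G) : fx (Ω := Ω) g = (univ.filter (fun x : Ω => g • x = x)).card := by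
  unfold fx
  congr

/-- Lines bound: a non-identity element fixes at most `(n-1)/(ℓ-1)` points. -/
theorem lines_bound (ht : TwoTrans G Ω) {g : G} (hg : g ≠ 1) {ℓ : ℕ}
    (hℓ : ∀ a c : Ω, a ≠ c → (Ln G a c).card = ℓ) :
    (ℓ - 1) * fx (Ω := Ω) g + 1 ≤ Fintype.card Ω := by
  classical
  obtain ⟨x, hx⟩ : ∃ x : Ω, g • x ≠ x := by
    by_contra hcon
    push Not at hcon
    apply hg
    apply FaithfulSMul.eq_of_smul_eq_smul (α := Ω)
    intro y
    simp [hcon y]
  set Γ : Finset Ω := univ.filter (fun y : Ω => g • y = y) with hΓ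
  have hne : ∀ y ∈ Γ, x ≠ y := by
    intro y hy h
    rw [hΓ, mem_filter] at hy
    exact hx (h ▸ hy.2)
  have hdisj : (Γ : Set Ω).PairwiseDisjoint (fun y => (Ln G x y).erase x) := by
    intro y hy y' hy' hyy'
    rw [Function.onFun, Finset.disjoint_left]
    intro w hw hw'
    rw [mem_erase, mem_Ln] at hw hw'
    have e1 := S2_eq_of_fixes ht (hne y hy) (Ne.symm hw.1) (fun g hg => (mem_S2.1 hg).1) hw.2
    have e2 := S2_eq_of_fixes ht (hne y' hy') (Ne.symm hw.1) (fun g hg => (mem_S2.1 hg).1) hw'.2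
    have e3 : S2 G x y = S2 G x y' := e1.trans e2.symm
    have e4 := S2_eq_of_fixes ht (hne y hy) hyy' (fun g hg => (mem_S2.1 hg).2)
      (fun g hg => by rw [e3] at hg; exact (mem_S2.1 hg).2)
    have hgmem : g ∈ S2 G y y' := by
      rw [mem_S2]
      have hy1 : g • y = y := by simpa [hΓ] using hy
      have hy2 : g • y' = y' := by simpa [hΓ] using hy'
      exact ⟨hy1, hy2⟩
    rw [← e4] at hgmem
    exact hx (mem_S2.1 hgmem).1
  have hsub : Γ.biUnion (fun y => (Ln G x y).erase x) ⊆ univ.erase x := by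
    intro w hw
    rw [mem_biUnion] at hw
    obtain ⟨y, _, hw⟩ := hw
    rw [mem_erase] at hw ⊢
    exact ⟨hw.1, mem_univ _⟩
  have hcard := Finset.card_le_card hsub
  rw [Finset.card_biUnion hdisj, Finset.card_erase_of_mem (mem_univ _), Finset.card_univ] at hcard
  have hsum : ∑ y ∈ Γ, ((Ln G x y).erase x).card = (ℓ - 1) * Γ.card := by
    rw [Finset.sum_congr rfl (g := fun _ => ℓ - 1)]
    · simp [mul_comm]
    · intro y hy
      rw [Finset.card_erase_of_mem (left_mem_Ln x y), hℓ x y (hne y hy)]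
  rw [hsum] at hcard
  have hn : 0 < Fintype.card Ω := Fintype.card_pos_iff.2 ⟨x⟩
  have hfx : fx (Ω := Ω) g = Γ.card := fx_eq g
  rw [hfx]
  omega

end lines

end Cfsg.Agent.Lib.DerTwoA
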