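import Mathlib
import Cfsg.Agent.Lib.DerTwoA

/-! Counting lemmas for the derangement bound. -/

set_option autoImplicit false
open Finset MulAction
open Cfsg.Agent.Lib.DerTwoA

namespace Cfsg.Agent.Lib.DerTwoB

section burnside
variable {K X : Type*} [Group K] [MulAction K X] [Fintype X]

theorem burnside [Fintype K] :
    ∑ k : K, fx (Ω := X) k = Nat.card (orbitRel.Quotient K X) * Fintype.card K := by
  classical
  have := sum_card_fixedBy_eq_card_orbits_mul_card_group K X
  rw [Nat.card_eq_fintype_card, ← this]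
  refine Finset.sum_congr rfl fun k _ => ?_
  rw [fx_eq, Fintype.card_subtype]
  rfl

theorem fx_one : fx (Ω := X) (1 : K) = Fintype.card X := by
  classical
  rw [fx_eq]
  simp

theorem fx_eq_zero_iff {g : K} : fx (Ω := X) g = 0 ↔ ∀ ω : X, g • ω ≠ ω := by
  classical
  rw [fx_eq, Finset.card_eq_zero, Finset.filter_eq_empty_iff]
  simp

theorem fx_le (g : K) : fx (Ω := X) g ≤ Fintype.card X := by
  classical
  rw [fx_eq]
  exact Finset.card_filter_le _ _

theorem fx_conj (k g : K) : fx (Ω := X) (k * g * k⁻¹) = fx (Ω := X) g := by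
  classical
  rw [fx_eq, fx_eq]
  refine Finset.card_bij (fun x _ => k⁻¹ • x) ?_ ?_ ?_
  · intro x hx
    simp only [mem_filter, mem_univ, true_and] at hx ⊢
    rw [← smul_left_cancel_iff k]
    simp only [mul_smul] at hx
    simpa [mul_smul] using hx
  · intro x _ y _ h
    exact smul_left_cancel _ h
  · intro x hx
    refine ⟨k • x, ?_, by simp⟩
    simp only [mem_filter, mem_univ, true_and] at hx ⊢
    simp [mul_smul, hx]

theorem fx_prod (g : K) : fx (Ω := X × X) g = fx (Ω := X) g * fx (Ω := X) g := by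
  classical
  rw [fx_eq, fx_eq, ← Finset.card_product]
  congr 1
  ext ⟨a, b⟩
  simp [Prod.smul_mk]

end burnside

section cc
variable {G Ω : Type*} [Group G] [Fintype G] [MulAction G Ω] [Fintype Ω]

theorem sum_fx_of_transitive [Nonempty Ω] (htr : IsPretransitive G Ω) :
    ∑ g : G, fx (Ω := Ω) g = Fintype.card G := by
  rw [burnside]
  have : Nat.card (orbitRel.Quotient G Ω) = 1 := by
    rw [Nat.card_eq_one_iff_unique]
    exact ⟨(pretransitive_iff_subsingleton_quotient G Ω).1 htr,
      ⟨Quotient.mk'' (Classical.arbitrary Ω)⟩⟩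
  rw [this, one_mul]

open Classical in
/-- derangement count as a finset. -/
theorem card_derange :
    Nat.card {g : G // ∀ ω : Ω, g • ω ≠ ω} = (univ.filter (fun g : G => fx (Ω := Ω) g = 0)).card := by
  rw [Nat.card_eq_fintype_card, Fintype.card_subtype]
  congr 1
  ext g
  simp [fx_eq_zero_iff]

/-- the Cameron--Cohen inequality. -/
theorem cameron_cohen [Nonempty Ω] (htr : IsPretransitive G Ω) (hnot : ¬ TwoTrans G Ω) :
    2 * Nat.card G ≤ Fintype.card Ω * Nat.card {g : G // ∀ ω : Ω, g • ω ≠ ω} := by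
  classical
  -- three orbits on pairs
  have hr : 3 ≤ Nat.card (orbitRel.Quotient G (Ω × Ω)) := by
    unfold TwoTrans at hnot
    push Not at hnot
    obtain ⟨a, c, a', c', hac, hac', hno⟩ := hnot
    let q : Ω × Ω → orbitRel.Quotient G (Ω × Ω) := fun p => Quotient.mk'' p
    have hq : ∀ p p' : Ω × Ω, q p = q p' → ∃ k : G, k • p' = p := by
      intro p p' h
      have : p ∈ orbit G p' := by
        have := Quotient.exact' h
        exact this
      obtain ⟨k, hk⟩ := this
      exact ⟨k, hk⟩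
    have h1 : q (a, a) ≠ q (a, c) := by
      intro h
      obtain ⟨k, hk⟩ := hq _ _ h
      simp only [Prod.smul_mk, Prod.mk.injEq] at hk
      exact hac (smul_left_cancel k (hk.1.trans hk.2.symm))
    have h2 : q (a, a) ≠ q (a', c') := by
      intro h
      obtain ⟨k, hk⟩ := hq _ _ h
      simp only [Prod.smul_mk, Prod.mk.injEq] at hk
      have : k • a' = k • c' := hk.1.trans hk.2.symm
      exact hac' (smul_left_cancel _ this)
    have h3 : q (a, c) ≠ q (a', c') := by
      intro h
      obtain ⟨k, hk⟩ := hq _ _ h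
      simp only [Prod.smul_mk, Prod.mk.injEq] at hk
      obtain ⟨k', hk'⟩ := hq _ _ h.symm
      simp only [Prod.smul_mk, Prod.mk.injEq] at hk'
      exact hno k' hk'.1 hk'.2
    letI : Fintype (orbitRel.Quotient G (Ω × Ω)) := Fintype.ofFinite _
    rw [Nat.card_eq_fintype_card]
    have : ({q (a, a), q (a, c), q (a', c')} : Finset _).card = 3 := by
      rw [Finset.card_eq_three]
      exact ⟨_, _, _, h1, h2, h3, rfl⟩
    rw [← this]
    exact Finset.card_le_univ _
  have hsq : 3 * Fintype.card G ≤ ∑ g : G, fx (Ω := Ω) g * fx (Ω := Ω) g := by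
    have := burnside (K := G) (X := Ω × Ω)
    simp only [fx_prod] at this
    rw [this]
    exact Nat.mul_le_mul_right _ hr
  have hsum := sum_fx_of_transitive (G := G) (Ω := Ω) htr
  set n := Fintype.card Ω with hn
  -- pointwise inequality in ℤ
  have hpt : ∀ g : G, ((fx (Ω := Ω) g : ℤ) * fx (Ω := Ω) g - (n + 1) * fx (Ω := Ω) g + n) ≤
      n * (if fx (Ω := Ω) g = 0 then 1 else 0) := by
    intro g
    have hle : (fx (Ω := Ω) g : ℤ) ≤ n := by exact_mod_cast fx_le g
    by_cases h0 : fx (Ω := Ω) g = 0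
    · simp [h0]
    · simp only [h0, if_false, mul_zero]
      have h1 : (1 : ℤ) ≤ fx (Ω := Ω) g := by
        have : 1 ≤ fx (Ω := Ω) g := Nat.one_le_iff_ne_zero.2 h0
        exact_mod_cast this
      nlinarith
  have htot := Finset.sum_le_sum (fun g (_ : g ∈ (univ : Finset G)) => hpt g)
  rw [Finset.sum_add_distrib, Finset.sum_sub_distrib, ← Finset.mul_sum, ← Finset.mul_sum,
    Finset.sum_const, Finset.card_univ] at htot
  have h3 : ((∑ g : G, fx (Ω := Ω) g : ℕ) : ℤ) = ∑ g : G, (fx (Ω := Ω) g : ℤ) := by push_cast; rfl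
  have h4 : ((∑ g : G, fx (Ω := Ω) g * fx (Ω := Ω) g : ℕ) : ℤ) =
      ∑ g : G, ((fx (Ω := Ω) g : ℤ) * fx (Ω := Ω) g) := by push_cast; rfl
  rw [← h3, ← h4, hsum] at htot
  have h5 : ((3 * Fintype.card G : ℕ) : ℤ) ≤ ((∑ g : G, fx (Ω := Ω) g * fx (Ω := Ω) g : ℕ) : ℤ) := by
    exact_mod_cast hsq
  have h6 : (∑ g : G, (if fx (Ω := Ω) g = 0 then (1 : ℤ) else 0)) =
      ((univ.filter (fun g : G => fx (Ω := Ω) g = 0)).card : ℤ) := by
    rw [Finset.card_filter]; push_cast; rfl
  rw [h6] at htot
  rw [card_derange, Nat.card_eq_fintype_card]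
  have h7 : ((2 * Fintype.card G : ℕ) : ℤ) ≤ ((n * (univ.filter (fun g : G => fx (Ω := Ω) g = 0)).card : ℕ) : ℤ) := by
    push_cast at h5 ⊢
    simp only [nsmul_eq_mul] at htot
    nlinarith
  exact_mod_cast h7

end cc

section formula
variable {G Ω : Type*} [Group G] [Fintype G] [MulAction G Ω] [Fintype Ω]

open Classical in
/-- the sum of `1/fix` over a two-point stabilizer. -/
noncomputable def sumS (G : Type*) {Ω : Type*} [Group G] [Fintype G] [MulAction G Ω] [Fintype Ω]
    (a c : Ω) : ℚ :=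
  ∑ g ∈ univ.filter (fun g : G => g ∈ S2 G a c), (1 : ℚ) / fx (Ω := Ω) g

theorem sumS_conj (a c : Ω) (k : G) : sumS G (k • a) (k • c) = sumS G a c := by
  classical
  unfold sumS
  refine Finset.sum_bij' (fun g _ => k⁻¹ * g * k) (fun g _ => k * g * k⁻¹) ?_ ?_ ?_ ?_ ?_
  · intro g hg
    simp only [mem_filter, mem_univ, true_and] at hg ⊢
    exact conj_inv_mem_S2 k hg
  · intro g hg
    simp only [mem_filter, mem_univ, true_and] at hg ⊢
    exact conj_mem_S2 k hg
  · intro g _; group
  · intro g _; group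
  · intro g _
    have := fx_conj (X := Ω) k⁻¹ g
    simp only [inv_inv] at this
    rw [this]

theorem sumS_eq (ht : TwoTrans G Ω) {a c a' c' : Ω} (h : a ≠ c) (h' : a' ≠ c') :
    sumS G a c = sumS G a' c' := by
  obtain ⟨k, rfl, rfl⟩ := ht a c a' c' h h'
  exact (sumS_conj a c k).symm

open Classical in
/-- the derangement formula -/
theorem derange_formula [Nonempty Ω] (htr : IsPretransitive G Ω) :
    (((univ.filter (fun g : G => fx (Ω := Ω) g = 0)).card : ℕ) : ℚ) =
      ∑ p ∈ (univ : Finset Ω).offDiag, sumS G p.1 p.2 := by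
  unfold sumS
  simp only [Finset.sum_filter]
  rw [Finset.sum_comm]
  have hterm : ∀ g : G, (∑ p ∈ (univ : Finset Ω).offDiag,
      (if g ∈ S2 G p.1 p.2 then (1 : ℚ) / fx (Ω := Ω) g else 0)) =
      ((fx (Ω := Ω) g : ℚ) - 1) + (if fx (Ω := Ω) g = 0 then 1 else 0) := by
    intro g
    rw [← Finset.sum_filter, Finset.sum_const, nsmul_eq_mul]
    have hfil : (univ : Finset Ω).offDiag.filter (fun p => g ∈ S2 G p.1 p.2) =
        (univ.filter (fun x : Ω => g • x = x)).offDiag := by
      ext p
      simp only [mem_filter, mem_offDiag, mem_univ, true_and, mem_S2]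
      tauto
    rw [hfil, Finset.offDiag_card, ← fx_eq]
    by_cases h0 : fx (Ω := Ω) g = 0
    · simp [h0]
    · have hpos : (0 : ℚ) < fx (Ω := Ω) g := by
        have : 0 < fx (Ω := Ω) g := Nat.pos_of_ne_zero h0
        exact_mod_cast this
      have hle : fx (Ω := Ω) g ≤ fx (Ω := Ω) g * fx (Ω := Ω) g := Nat.le_mul_self _
      rw [Nat.cast_sub hle, if_neg h0]
      push_cast
      field_simp
      ring
  simp only [hterm]
  rw [Finset.sum_add_distrib, Finset.sum_sub_distrib]
  have h1 : (∑ g : G, (fx (Ω := Ω) g : ℚ)) = Fintype.card G := by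
    have := sum_fx_of_transitive (G := G) (Ω := Ω) htr
    exact_mod_cast this
  rw [h1, Finset.sum_const, Finset.card_univ, Finset.sum_boole]
  simp

/-- order of `G` for a 2-transitive action. -/
theorem card_G_eq (ht : TwoTrans G Ω) {α β : Ω} (hαβ : α ≠ β) :
    Fintype.card G = Fintype.card Ω * (Fintype.card Ω - 1) * Nat.card (S2 G α β) := by
  classical
  have hstab : stabilizer G ((α, β) : Ω × Ω) = S2 G α β := by
    ext g
    simp [mem_stabilizer_iff, Prod.smul_mk]
  have horb : orbit G ((α, β) : Ω × Ω) = ((univ : Finset Ω).offDiag : Set (Ω × Ω)) := by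
    ext ⟨a, c⟩
    simp only [mem_orbit_iff, Prod.smul_mk, Prod.mk.injEq, coe_offDiag, coe_univ, Set.mem_offDiag,
      Set.mem_univ, true_and]
    constructor
    · rintro ⟨k, rfl, rfl⟩ h
      exact hαβ (smul_left_cancel _ h)
    · intro h
      exact ht α β a c hαβ h
  have h1 := Subgroup.card_mul_index (stabilizer G ((α, β) : Ω × Ω))
  rw [index_stabilizer, horb, Set.ncard_coe_finset, Finset.offDiag_card, Finset.card_univ, hstab,
    Nat.card_eq_fintype_card (α := G)] at h1
  rw [← h1]
  have h2 : Fintype.card Ω * Fintype.card Ω - Fintype.card Ω = Fintype.card Ω * (Fintype.card Ω - 1) := by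
    rw [Nat.mul_sub, mul_one]
  rw [h2, mul_comm]

end formula

end Cfsg.Agent.Lib.DerTwoB
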