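import Mathlib
import Cfsg.Agent.Lib.DerTwoB

/-! Orbit structure and the main inequality for the derangement bound. -/

set_option autoImplicit false
open Finset MulAction
open Cfsg.Agent.Lib.DerTwoA Cfsg.Agent.Lib.DerTwoB

namespace Cfsg.Agent.Lib.DerTwoC

section orbits
variable {G Ω : Type*} [Group G] [Fintype G] [MulAction G Ω] [Fintype Ω]

open Classical in
/-- elements of a subgroup, as a finset -/
noncomputable def bs (B : Subgroup G) : Finset G := univ.filter (fun g : G => g ∈ B)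

open Classical in
/-- orbit of a point under a subgroup -/
noncomputable def orbF (B : Subgroup G) (x : Ω) : Finset Ω :=
  univ.filter (fun y : Ω => ∃ g ∈ B, g • x = y)

open Classical in
/-- size of a point stabilizer in a subgroup -/
noncomputable def stF (B : Subgroup G) (x : Ω) : ℕ :=
  ((bs B).filter (fun g : G => g • x = x)).card

theorem mem_bs {B : Subgroup G} {g : G} : g ∈ bs B ↔ g ∈ B := by
  classical
  simp [bs]

theorem mem_orbF {B : Subgroup G} {x y : Ω} : y ∈ orbF B x ↔ ∃ g ∈ B, g • x = y := by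
  classical
  simp [orbF]

theorem self_mem_orbF (B : Subgroup G) (x : Ω) : x ∈ orbF B x :=
  mem_orbF.2 ⟨1, B.one_mem, one_smul _ _⟩

theorem card_bs (B : Subgroup G) : (bs B).card = Nat.card B := by
  classical
  rw [Nat.card_eq_fintype_card, Fintype.card_subtype]
  rfl

theorem orbF_eq_of_mem {B : Subgroup G} {x y : Ω} (h : y ∈ orbF B x) : orbF B y = orbF B x := by
  obtain ⟨g, hg, rfl⟩ := mem_orbF.1 h
  ext z
  simp only [mem_orbF]
  constructor
  · rintro ⟨k, hk, rfl⟩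
    exact ⟨k * g, B.mul_mem hk hg, by rw [mul_smul]⟩
  · rintro ⟨k, hk, rfl⟩
    exact ⟨k * g⁻¹, B.mul_mem hk (B.inv_mem hg), by simp [mul_smul]⟩

/-- orbit-stabilizer -/
theorem card_orbF_mul_stF (B : Subgroup G) (x : Ω) :
    (orbF B x).card * stF B x = Nat.card B := by
  classical
  have h1 := Subgroup.card_mul_index (stabilizer ↥B x)
  have horb : orbit ↥B x = ((orbF B x : Finset Ω) : Set Ω) := by
    ext y
    simp only [mem_orbit_iff, mem_coe, mem_orbF]
    constructor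
    · rintro ⟨g, rfl⟩
      exact ⟨g.1, g.2, rfl⟩
    · rintro ⟨g, hg, rfl⟩
      exact ⟨⟨g, hg⟩, rfl⟩
  rw [index_stabilizer, horb, Set.ncard_coe_finset] at h1
  have hst : Nat.card (stabilizer ↥B x) = stF B x := by
    have e : {g : ↥B // g ∈ stabilizer ↥B x} ≃ {g : G // g ∈ B ∧ g • x = x} :=
      Equiv.subtypeSubtypeEquivSubtypeInter (fun g : G => g ∈ B) (fun g : G => g • x = x)
    have h2 : Nat.card (stabilizer ↥B x) = Nat.card {g : G // g ∈ B ∧ g • x = x} := Nat.card_congr e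
    rw [h2, Nat.card_eq_fintype_card, Fintype.card_subtype]
    unfold stF bs
    rw [Finset.filter_filter]
  rw [hst] at h1
  rw [mul_comm]
  exact h1

theorem orbF_pos (B : Subgroup G) (x : Ω) : 0 < (orbF B x).card :=
  Finset.card_pos.2 ⟨x, self_mem_orbF B x⟩

/-- sum over a subgroup of fixed point numbers is a sum of stabilizer orders -/
theorem sum_fx_bs (B : Subgroup G) : ∑ g ∈ bs B, fx (Ω := Ω) g = ∑ x : Ω, stF B x := by
  classical
  unfold stF
  simp only [fx_eq, Finset.card_filter]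
  rw [Finset.sum_comm]

/-- Burnside for a subgroup -/
theorem sum_fx_bs_eq (B : Subgroup G) :
    ∑ g ∈ bs B, fx (Ω := Ω) g = Nat.card (orbitRel.Quotient ↥B Ω) * Nat.card B := by
  classical
  have h := burnside (K := ↥B) (X := Ω)
  rw [← Nat.card_eq_fintype_card] at h
  rw [← h]
  have hfx : ∀ k : ↥B, fx (Ω := Ω) k = fx (Ω := Ω) (k : G) := by
    intro k
    rw [fx_eq, fx_eq]
    rfl
  simp only [hfx]
  exact Finset.sum_subtype (bs B) (fun x => mem_bs) (fun g => fx (Ω := Ω) g)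

end orbits

section main
variable {G Ω : Type*} [Group G] [Fintype G] [MulAction G Ω] [Fintype Ω]

omit [Fintype G] in
theorem ell_le_fx {α β : Ω} {g : G} (hg : g ∈ S2 G α β) :
    (Ln G α β).card ≤ fx (Ω := Ω) g := by
  classical
  rw [fx_eq]
  apply Finset.card_le_card
  intro x hx
  rw [mem_Ln] at hx
  simp [hx g hg]

omit [Fintype G] in
theorem two_le_ell {α β : Ω} (hαβ : α ≠ β) : 2 ≤ (Ln G α β).card := by
  classical
  have h : ({α, β} : Finset Ω) ⊆ Ln G α β := by
    intro x hx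
    simp only [mem_insert, mem_singleton] at hx
    rcases hx with rfl | rfl
    · exact left_mem_Ln _ _
    · exact right_mem_Ln _ _
  have := Finset.card_le_card h
  rwa [Finset.card_pair hαβ] at this

theorem sumS_eq_bs (α β : Ω) :
    sumS G α β = ∑ g ∈ bs (S2 G α β), (1 : ℚ) / fx (Ω := Ω) g := rfl

open Classical in
theorem sumS_split (α β : Ω) :
    sumS G α β = 1 / (Fintype.card Ω : ℚ) +
      ∑ g ∈ (bs (S2 G α β)).erase 1, (1 : ℚ) / fx (Ω := Ω) g := by
  classical
  rw [sumS_eq_bs, ← Finset.add_sum_erase _ _ (mem_bs.2 (Subgroup.one_mem _)), fx_one]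

theorem fx_pos_of_mem {α β : Ω} (hαβ : α ≠ β) {g : G} (hg : g ∈ S2 G α β) :
    (0 : ℚ) < fx (Ω := Ω) g := by
  have h1 := ell_le_fx hg
  have h2 := two_le_ell (G := G) hαβ
  have : 0 < fx (Ω := Ω) g := by omega
  exact_mod_cast this

/-- all non-identity fixed point numbers at most n/3. -/
theorem case_ell4 {α β : Ω} (hαβ : α ≠ β) (hb : 2 ≤ Nat.card (S2 G α β))
    (hn : 0 < Fintype.card Ω)
    (hbound : ∀ g ∈ S2 G α β, g ≠ 1 → 3 * fx (Ω := Ω) g + 1 ≤ Fintype.card Ω) :
    (2 * Nat.card (S2 G α β) : ℚ) ≤ Fintype.card Ω * sumS G α β := by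
  classical
  have hn' : (0 : ℚ) < Fintype.card Ω := by exact_mod_cast hn
  rw [sumS_split]
  have hterm : ∀ g ∈ (bs (S2 G α β)).erase 1, (3 : ℚ) / Fintype.card Ω ≤ 1 / fx (Ω := Ω) g := by
    intro g hg
    rw [mem_erase, mem_bs] at hg
    have hpos := fx_pos_of_mem hαβ hg.2
    rw [div_le_div_iff₀ hn' hpos]
    have := hbound g hg.2 hg.1
    have h2 : ((3 * fx (Ω := Ω) g + 1 : ℕ) : ℚ) ≤ Fintype.card Ω := by exact_mod_cast this
    push_cast at h2
    linarith
  have hsum := Finset.sum_le_sum hterm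
  rw [Finset.sum_const, Finset.card_erase_of_mem (mem_bs.2 (Subgroup.one_mem _)), card_bs,
    nsmul_eq_mul] at hsum
  have hcast : ((Nat.card (S2 G α β) - 1 : ℕ) : ℚ) = (Nat.card (S2 G α β) : ℚ) - 1 := by
    rw [Nat.cast_sub (by omega)]; simp
  rw [hcast] at hsum
  have hb' : (2 : ℚ) ≤ Nat.card (S2 G α β) := by exact_mod_cast hb
  rw [mul_add, mul_one_div_cancel hn'.ne']
  have h3 : (Fintype.card Ω : ℚ) * ((Nat.card (S2 G α β) - 1) * (3 / Fintype.card Ω)) =
      3 * (Nat.card (S2 G α β) - 1) := by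
    field_simp
  have h4 := mul_le_mul_of_nonneg_left hsum hn'.le
  rw [h3] at h4
  linarith

/-- tangent line estimate. -/
theorem case_tangent {α β : Ω} (hαβ : α ≠ β) {μ : ℕ}
    (hW : ∑ g ∈ bs (S2 G α β), fx (Ω := Ω) g = μ * Nat.card (S2 G α β))
    (hn : 0 < Fintype.card Ω) (hμ : 2 * μ ≤ Fintype.card Ω) :
    (2 * Nat.card (S2 G α β) : ℚ) ≤ Fintype.card Ω * sumS G α β := by
  classical
  have hn' : (0 : ℚ) < Fintype.card Ω := by exact_mod_cast hn
  rw [sumS_eq_bs, Finset.mul_sum]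
  have hterm : ∀ g ∈ bs (S2 G α β), (4 : ℚ) - 4 * fx (Ω := Ω) g / Fintype.card Ω ≤
      Fintype.card Ω * (1 / fx (Ω := Ω) g) := by
    intro g hg
    have hpos := fx_pos_of_mem hαβ (mem_bs.1 hg)
    have : (Fintype.card Ω : ℚ) * (1 / fx (Ω := Ω) g) - (4 - 4 * fx (Ω := Ω) g / Fintype.card Ω) =
        ((Fintype.card Ω : ℚ) - 2 * fx (Ω := Ω) g) ^ 2 / (Fintype.card Ω * fx (Ω := Ω) g) := by
      field_simp
      ring
    have h2 : (0 : ℚ) ≤ ((Fintype.card Ω : ℚ) - 2 * fx (Ω := Ω) g) ^ 2 / (Fintype.card Ω * fx (Ω := Ω) g) :=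
      div_nonneg (sq_nonneg _) (mul_pos hn' hpos).le
    linarith
  have hsum := Finset.sum_le_sum hterm
  rw [Finset.sum_sub_distrib, Finset.sum_const, card_bs, nsmul_eq_mul] at hsum
  have hW' : (∑ g ∈ bs (S2 G α β), (fx (Ω := Ω) g : ℚ)) = μ * Nat.card (S2 G α β) := by
    exact_mod_cast hW
  have h3 : (∑ g ∈ bs (S2 G α β), 4 * (fx (Ω := Ω) g : ℚ) / Fintype.card Ω) =
      4 * (μ * Nat.card (S2 G α β)) / Fintype.card Ω := by
    rw [← hW', Finset.mul_sum, Finset.sum_div]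
  rw [h3] at hsum
  have hμ' : (2 * μ : ℚ) ≤ Fintype.card Ω := by exact_mod_cast hμ
  have hb0 : (0 : ℚ) ≤ Nat.card (S2 G α β) := by positivity
  have h4 : 4 * ((μ : ℚ) * Nat.card (S2 G α β)) / Fintype.card Ω ≤ 2 * Nat.card (S2 G α β) := by
    rw [div_le_iff₀ hn']
    nlinarith
  nlinarith

/-- Titu estimate. -/
theorem case_titu {α β : Ω} (hαβ : α ≠ β) (hb : 2 ≤ Nat.card (S2 G α β))
    (hW : 2 * ∑ g ∈ bs (S2 G α β), fx (Ω := Ω) g =
      (Fintype.card Ω + 1) * Nat.card (S2 G α β))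
    (hn : 0 < Fintype.card Ω)
    (hbound : ∀ g ∈ S2 G α β, g ≠ 1 → 2 * fx (Ω := Ω) g + 1 ≤ Fintype.card Ω) :
    (2 * Nat.card (S2 G α β) : ℚ) ≤ Fintype.card Ω * sumS G α β := by
  classical
  have hn' : (0 : ℚ) < Fintype.card Ω := by exact_mod_cast hn
  set n : ℚ := ((Fintype.card Ω : ℕ) : ℚ) with hndef
  set b : ℚ := ((Nat.card (S2 G α β) : ℕ) : ℚ) with hbdef
  have hb' : (2 : ℚ) ≤ b := by rw [hbdef]; exact_mod_cast hb
  rw [sumS_split]
  set s := (bs (S2 G α β)).erase 1 with hs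
  have h1mem : (1 : G) ∈ bs (S2 G α β) := mem_bs.2 (Subgroup.one_mem _)
  have hscard : (s.card : ℚ) = b - 1 := by
    rw [hs, Finset.card_erase_of_mem h1mem, card_bs, Nat.cast_sub (by omega)]
    simp [hbdef]
  -- sum of fixed points over s
  set U : ℚ := ∑ g ∈ s, (fx (Ω := Ω) g : ℚ) with hU
  have hU1 : 2 * U = (n + 1) * b - 2 * n := by
    have h1 : (∑ g ∈ bs (S2 G α β), (fx (Ω := Ω) g : ℚ)) = n + U := by
      rw [← Finset.add_sum_erase _ _ h1mem, fx_one]
    have h2 : (2 * ∑ g ∈ bs (S2 G α β), (fx (Ω := Ω) g : ℚ)) = (n + 1) * b := by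
      have h3 := congrArg (Nat.cast : ℕ → ℚ) hW
      push_cast at h3
      exact h3
    rw [h1] at h2
    linarith
  have hfpos : ∀ g ∈ s, (0 : ℚ) < fx (Ω := Ω) g := by
    intro g hg
    rw [hs, mem_erase, mem_bs] at hg
    exact fx_pos_of_mem hαβ hg.2
  have hU2 : 2 * U ≤ (b - 1) * (n - 1) := by
    have hterm : ∀ g ∈ s, 2 * (fx (Ω := Ω) g : ℚ) ≤ n - 1 := by
      intro g hg
      rw [hs, mem_erase, mem_bs] at hg
      have := hbound g hg.2 hg.1
      have h2 : ((2 * fx (Ω := Ω) g + 1 : ℕ) : ℚ) ≤ n := by rw [hndef]; exact_mod_cast this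
      push_cast at h2
      linarith
    have hsum := Finset.sum_le_sum hterm
    rw [← Finset.mul_sum, Finset.sum_const, nsmul_eq_mul, hscard] at hsum
    exact hsum
  have hb3 : 2 * b ≤ n + 1 := by nlinarith
  have hsne : s.Nonempty := by
    rw [← Finset.card_pos]
    have : (0 : ℚ) < s.card := by rw [hscard]; linarith
    exact_mod_cast this
  have hUpos : 0 < U := Finset.sum_pos hfpos hsne
  have htitu := Finset.sq_sum_div_le_sum_sq_div s (fun _ => (1 : ℚ)) hfpos
  simp only [Finset.sum_const, nsmul_eq_mul, mul_one, one_pow] at htitu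
  rw [hscard] at htitu
  set P : ℚ := ∑ g ∈ s, (1 : ℚ) / fx (Ω := Ω) g with hP
  have hP1 : (b - 1) ^ 2 ≤ P * U := by
    rwa [div_le_iff₀ hUpos] at htitu
  have hkey : (2 * b - 1) * U ≤ n * (b - 1) ^ 2 := by
    have : 2 * (n * (b - 1) ^ 2) - (2 * b - 1) * (2 * U) = b * (n + 1 - 2 * b) := by
      rw [hU1]; ring
    have hnn : 0 ≤ b * (n + 1 - 2 * b) := mul_nonneg (by linarith) (by linarith)
    nlinarith
  have hP2 : 2 * b - 1 ≤ n * P := by
    by_contra hcon
    push Not at hcon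
    have : n * P * U < (2 * b - 1) * U := mul_lt_mul_of_pos_right hcon hUpos
    nlinarith
  rw [mul_add, mul_one_div_cancel hn'.ne']
  linarith

/-- the case of two-point stabilizer of order 2. -/
theorem case_b2 [FaithfulSMul G Ω] {α β : Ω} (hαβ : α ≠ β) (hb : Nat.card (S2 G α β) = 2)
    (hn : 0 < Fintype.card Ω) (h3 : 3 * (Ln G α β).card ≤ Fintype.card Ω) :
    (2 * Nat.card (S2 G α β) : ℚ) ≤ Fintype.card Ω * sumS G α β := by
  classical
  have hn' : (0 : ℚ) < Fintype.card Ω := by exact_mod_cast hn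
  rw [sumS_split, hb]
  have h1mem : (1 : G) ∈ bs (S2 G α β) := mem_bs.2 (Subgroup.one_mem _)
  have hcard : ((bs (S2 G α β)).erase 1).card = 1 := by
    rw [Finset.card_erase_of_mem h1mem, card_bs, hb]
  obtain ⟨t, ht⟩ := Finset.card_eq_one.1 hcard
  have htmem : t ∈ (bs (S2 G α β)).erase 1 := by rw [ht]; simp
  rw [mem_erase, mem_bs] at htmem
  have hall : ∀ g ∈ S2 G α β, g = 1 ∨ g = t := by
    intro g hg
    by_cases h1 : g = 1
    · exact Or.inl h1
    · right
      have : g ∈ (bs (S2 G α β)).erase 1 := by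
        rw [mem_erase, mem_bs]; exact ⟨h1, hg⟩
      rw [ht] at this
      simpa using this
  have hfix : fx (Ω := Ω) t = (Ln G α β).card := by
    rw [fx_eq]
    congr 1
    ext x
    simp only [mem_filter, mem_univ, true_and, mem_Ln]
    constructor
    · intro h g hg
      rcases hall g hg with rfl | rfl
      · simp
      · exact h
    · intro h
      exact h t htmem.2
  rw [ht, Finset.sum_singleton, hfix, mul_add, mul_one_div_cancel hn'.ne']
  have hℓ : (0 : ℚ) < (Ln G α β).card := by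
    have := two_le_ell (G := G) hαβ
    have h0 : 0 < (Ln G α β).card := by omega
    exact_mod_cast h0
  have h3' : (3 : ℚ) * (Ln G α β).card ≤ Fintype.card Ω := by exact_mod_cast h3
  have : (3 : ℚ) ≤ (Fintype.card Ω : ℚ) * (1 / (Ln G α β).card) := by
    rw [mul_one_div, le_div_iff₀ hℓ]
    linarith
  push_cast
  linarith

end main

end Cfsg.Agent.Lib.DerTwoC
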