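import Mathlib
import Cfsg.Agent.Lib.KleinTools
import Cfsg.Agent.S0111

/-!
# A finite group whose Sylow 2-subgroup is dihedral: basic calculus

Rotations and reflections of `S`, as elements of the ambient group.
-/

set_option autoImplicit false

namespace Cfsg.Agent.Lib.DihSylow

open DihedralGroup

variable {X : Type*} [Group X] {S : Subgroup X} {m : ℕ} (e : S ≃* DihedralGroup m)

/-- The rotations of `S`, in the ambient group. -/
def rot (j : ZMod m) : X := ((e.symm (r j) : S) : X)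

/-- The reflections of `S`, in the ambient group. -/
def rfl' (i : ZMod m) : X := ((e.symm (sr i) : S) : X)

lemma rot_mem (j : ZMod m) : rot e j ∈ S := (e.symm (r j)).2

lemma rfl'_mem (i : ZMod m) : rfl' e i ∈ S := (e.symm (sr i)).2

lemma rot_mul_rot (i j : ZMod m) : rot e i * rot e j = rot e (i + j) := by
  unfold rot
  rw [← Subgroup.coe_mul, ← map_mul, r_mul_r]

lemma rot_mul_rfl (i j : ZMod m) : rot e i * rfl' e j = rfl' e (j - i) := by
  unfold rot rfl'
  rw [← Subgroup.coe_mul, ← map_mul, r_mul_sr]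

lemma rfl_mul_rot (i j : ZMod m) : rfl' e i * rot e j = rfl' e (i + j) := by
  unfold rot rfl'
  rw [← Subgroup.coe_mul, ← map_mul, sr_mul_r]

lemma rfl_mul_rfl (i j : ZMod m) : rfl' e i * rfl' e j = rot e (j - i) := by
  unfold rot rfl'
  rw [← Subgroup.coe_mul, ← map_mul, sr_mul_sr]

lemma rot_zero : rot e 0 = 1 := by
  unfold rot
  rw [r_zero, map_one]; rfl

lemma rot_inj {i j : ZMod m} (h : rot e i = rot e j) : i = j := by
  have h1 : e.symm (r i) = e.symm (r j) := Subtype.ext h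
  exact r.inj (e.symm.injective h1)

lemma rfl_inj {i j : ZMod m} (h : rfl' e i = rfl' e j) : i = j := by
  have h1 : e.symm (sr i) = e.symm (sr j) := Subtype.ext h
  exact sr.inj (e.symm.injective h1)

lemma rot_ne_rfl (i j : ZMod m) : rot e i ≠ rfl' e j := by
  intro h
  have h1 : e.symm (r i) = e.symm (sr j) := Subtype.ext h
  have h2 := e.symm.injective h1
  cases h2

lemma mem_cases {s : X} (hs : s ∈ S) : (∃ j, s = rot e j) ∨ ∃ i, s = rfl' e i := by
  obtain ⟨y, hy⟩ := e.symm.surjective ⟨s, hs⟩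
  have hs' : s = ((e.symm y : S) : X) := by rw [hy]
  rcases y with j | i
  · exact Or.inl ⟨j, hs'⟩
  · exact Or.inr ⟨i, hs'⟩

lemma rfl_mul_self (i : ZMod m) : rfl' e i * rfl' e i = 1 := by
  rw [rfl_mul_rfl, sub_self, rot_zero]

lemma rfl_inv (i : ZMod m) : (rfl' e i)⁻¹ = rfl' e i :=
  inv_eq_of_mul_eq_one_left (rfl_mul_self e i)

lemma rot_inv (i : ZMod m) : (rot e i)⁻¹ = rot e (-i) := by
  apply inv_eq_of_mul_eq_one_left
  rw [rot_mul_rot, neg_add_cancel, rot_zero]

lemma rfl_ne_one (i : ZMod m) : rfl' e i ≠ 1 := by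
  rw [← rot_zero e]
  exact (rot_ne_rfl e 0 i).symm

lemma orderOf_rfl (i : ZMod m) : orderOf (rfl' e i) = 2 :=
  orderOf_eq_prime (by rw [pow_two, rfl_mul_self]) (rfl_ne_one e i)

lemma rot_conj_rfl (j i : ZMod m) : rot e j * rfl' e i * (rot e j)⁻¹ = rfl' e (i - 2 * j) := by
  rw [rot_inv, rot_mul_rfl, rfl_mul_rot]
  congr 1
  ring

lemma rfl_conj_rot (j i : ZMod m) : rfl' e j * rot e i * (rfl' e j)⁻¹ = rot e (-i) := by
  rw [rfl_inv, rfl_mul_rot, rfl_mul_rfl]
  congr 1
  ring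

lemma rfl_conj_rfl (j i : ZMod m) : rfl' e j * rfl' e i * (rfl' e j)⁻¹ = rfl' e (2 * j - i) := by
  rw [rfl_inv, rfl_mul_rfl, rot_mul_rfl]
  congr 1
  ring

/-- Every element of `S` is a product of two reflections or a reflection. -/
lemma le_of_rfl_mem {H : Subgroup X} (hH : ∀ i, rfl' e i ∈ H) : S ≤ H := by
  intro s hs
  rcases mem_cases e hs with ⟨j, rfl⟩ | ⟨i, rfl⟩
  · have h1 := H.mul_mem (hH 0) (hH j)
    rwa [rfl_mul_rfl, sub_zero] at h1
  · exact hH i

/-- The cardinality. -/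
lemma card_eq (e : S ≃* DihedralGroup m) : Nat.card S = 2 * m := by
  rw [Nat.card_congr e.toEquiv, DihedralGroup.nat_card]

lemma rot_zpow (k : ℤ) : (rot e 1) ^ k = rot e (k : ZMod m) := by
  unfold rot
  rw [← Subgroup.coe_zpow, ← map_zpow, r_one_zpow]

lemma mem_Q_iff {x : X} (hx : x ∈ Subgroup.zpowers (rot e 1)) : ∃ j, x = rot e j := by
  obtain ⟨k, rfl⟩ := hx
  exact ⟨k, rot_zpow e k⟩

lemma Q_le : Subgroup.zpowers (rot e 1) ≤ S := by
  rw [Subgroup.zpowers_le]; exact rot_mem e 1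

lemma rfl_not_mem_Q (i : ZMod m) : rfl' e i ∉ Subgroup.zpowers (rot e 1) := by
  intro h
  obtain ⟨j, hj⟩ := mem_Q_iff e h
  exact rot_ne_rfl e j i hj.symm

lemma orderOf_rot_one : orderOf (rot e 1) = m := by
  have h1 : orderOf (rot e 1) = orderOf (e.symm (r 1)) := Subgroup.orderOf_coe _
  have h2 : orderOf (e.symm (r 1 : DihedralGroup m)) = orderOf (r 1 : DihedralGroup m) :=
    MulEquiv.orderOf_eq _ _
  rw [h1, h2, orderOf_r_one]

lemma Q_relIndex (hm : m ≠ 0) : (Subgroup.zpowers (rot e 1)).relIndex S = 2 := by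
  have h1 := Subgroup.card_mul_index ((Subgroup.zpowers (rot e 1)).subgroupOf S)
  have h2 : Nat.card ((Subgroup.zpowers (rot e 1)).subgroupOf S) = m := by
    rw [Nat.card_congr (Subgroup.subgroupOfEquivOfLe (Q_le e)).toEquiv, Nat.card_zpowers, orderOf_rot_one]
  rw [h2, card_eq e] at h1
  have h3 : m * 2 = m * ((Subgroup.zpowers (rot e 1)).subgroupOf S).index := by rw [h1]; ring
  have hpos : 0 < m := Nat.pos_of_ne_zero hm
  exact (Nat.eq_of_mul_eq_mul_left hpos h3).symm

section even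

variable [NeZero m]

lemma two_tors (a b : ZMod m) (ha : 2 * a = 0) (hb : 2 * b = 0) (ha0 : a ≠ 0) (hb0 : b ≠ 0) : a = b := by
  have key : ∀ a : ZMod m, 2 * a = 0 → a ≠ 0 → 2 * a.val = m := by
    intro a ha ha0
    have h1 : ((2 * a.val : ℕ) : ZMod m) = 0 := by
      push_cast
      rw [ZMod.natCast_zmod_val, ha]
    rw [ZMod.natCast_eq_zero_iff] at h1
    obtain ⟨q, hq⟩ := h1
    have hlt := ZMod.val_lt a
    have hm : 0 < m := Nat.pos_of_ne_zero (NeZero.ne m)
    have hval : a.val ≠ 0 := by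
      intro h
      exact ha0 ((ZMod.val_eq_zero a).mp h)
    have hq2 : q < 2 := by
      by_contra hq2
      push Not at hq2
      have : m * 2 ≤ m * q := Nat.mul_le_mul_left _ hq2
      omega
    interval_cases q
    · omega
    · omega
  have h1 := key a ha ha0
  have h2 := key b hb hb0
  apply ZMod.val_injective
  omega

/-- The non-trivial central rotation. -/
noncomputable def half (m : ℕ) : ZMod m := ((m / 2 : ℕ) : ZMod m)

lemma two_half (hm2 : Even m) : 2 * half m = 0 := by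
  unfold half
  have h : ((2 * (m / 2) : ℕ) : ZMod m) = 0 := by
    have h1 : 2 * (m / 2) = m := Nat.two_mul_div_two_of_even hm2
    rw [h1]; exact ZMod.natCast_self m
  push_cast at h
  exact h

lemma half_ne_zero (hm2 : Even m) (hm : 2 ≤ m) : half m ≠ 0 := by
  unfold half
  rw [Ne, ZMod.natCast_eq_zero_iff]
  intro h
  have h1 := Nat.le_of_dvd (by omega) h
  omega

/-- The central involution. -/
noncomputable def zz : X := rot e (half m)

lemma zz_mem : zz e ∈ S := rot_mem e _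

lemma zz_mul_self (hm2 : Even m) : zz e * zz e = 1 := by
  unfold zz
  rw [rot_mul_rot, ← two_mul, two_half hm2, rot_zero]

lemma zz_ne_one (hm2 : Even m) (hm : 2 ≤ m) : zz e ≠ 1 := by
  unfold zz
  rw [← rot_zero e]
  intro h
  exact half_ne_zero hm2 hm (rot_inj e h)

lemma zz_comm_rot (j : ZMod m) : zz e * rot e j = rot e j * zz e := by
  unfold zz
  rw [rot_mul_rot, rot_mul_rot, add_comm]

lemma zz_comm_rfl (hm2 : Even m) (i : ZMod m) : zz e * rfl' e i = rfl' e i * zz e := by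
  unfold zz
  rw [rot_mul_rfl, rfl_mul_rot]
  congr 1
  have := two_half (m := m) hm2
  linear_combination -this

lemma zz_comm (hm2 : Even m) {s : X} (hs : s ∈ S) : s * zz e = zz e * s := by
  rcases mem_cases e hs with ⟨j, rfl⟩ | ⟨i, rfl⟩
  · exact (zz_comm_rot e j).symm
  · exact (zz_comm_rfl e hm2 i).symm

lemma rfl_ne_zz (i : ZMod m) : rfl' e i ≠ zz e := (rot_ne_rfl e _ i).symm

lemma rot_mul_self {j : ZMod m} (h : rot e j * rot e j = 1) : 2 * j = 0 := by
  rw [rot_mul_rot, ← rot_zero e] at h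
  rw [two_mul]
  exact rot_inj e h

lemma eq_zz_of_rot (hm2 : Even m) (hm : 2 ≤ m) {j : ZMod m} (h : rot e j * rot e j = 1) (h1 : rot e j ≠ 1) :
    rot e j = zz e := by
  have hj : j ≠ 0 := by
    rintro rfl
    exact h1 (rot_zero e)
  rw [two_tors j (half m) (rot_mul_self e h) (two_half hm2) hj (half_ne_zero hm2 hm)]
  rfl

/-- The involutions of `S`. -/
lemma invol_cases (hm2 : Even m) (hm : 2 ≤ m) {s : X} (hs : s ∈ S) (h2 : s * s = 1) (h1 : s ≠ 1) :
    s = zz e ∨ ∃ i, s = rfl' e i := by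
  rcases mem_cases e hs with ⟨j, rfl⟩ | ⟨i, rfl⟩
  · exact Or.inl (eq_zz_of_rot e hm2 hm h2 h1)
  · exact Or.inr ⟨i, rfl⟩

end even

end Cfsg.Agent.Lib.DihSylow

namespace Cfsg.Agent.Lib.DihSylow

variable {X : Type*} [Group X]

/-- A subgroup such that elements of `N` fix `v` and permute `{t, w}`, and fixing `v` and `t` lands in `C`, has index at most two. -/
lemma relIndex_le_two [Finite X] (N C : Subgroup X) (v t w : X) (hv : ∀ x ∈ N, x * v * x⁻¹ = v)
    (ht : ∀ x ∈ N, x * t * x⁻¹ = t ∨ x * t * x⁻¹ = w)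
    (hC : ∀ x ∈ N, x * v * x⁻¹ = v → x * t * x⁻¹ = t → x ∈ C) : C.relIndex N ≤ 2 := by
  classical
  rw [Subgroup.relIndex, Subgroup.index_eq_card]
  let f : (N ⧸ C.subgroupOf N) → Bool := fun q => decide ((q.out : X) * t * (q.out : X)⁻¹ = t)
  have hf : Function.Injective f := by
    intro q q' hqq
    have h1 : (q.out : X) * t * (q.out : X)⁻¹ = (q'.out : X) * t * (q'.out : X)⁻¹ := by
      have hf' : ((q.out : X) * t * (q.out : X)⁻¹ = t) ↔ ((q'.out : X) * t * (q'.out : X)⁻¹ = t) :=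
        decide_eq_decide.mp hqq
      rcases ht _ q.out.2 with h | h
      · rw [h, hf'.mp h]
      · rcases ht _ q'.out.2 with h' | h'
        · rw [h', hf'.mpr h']
        · rw [h, h']
    rw [← QuotientGroup.out_eq' q, ← QuotientGroup.out_eq' q', QuotientGroup.eq, Subgroup.mem_subgroupOf]
    have hy : (((q.out : N)⁻¹ * q'.out : N) : X) = (q.out : X)⁻¹ * q'.out := rfl
    rw [hy]
    apply hC _ (N.mul_mem (N.inv_mem q.out.2) q'.out.2)
    · have e1 := hv _ q.out.2
      have e2 := hv _ q'.out.2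
      calc (q.out : X)⁻¹ * q'.out * v * ((q.out : X)⁻¹ * q'.out)⁻¹
          = (q.out : X)⁻¹ * ((q'.out : X) * v * (q'.out : X)⁻¹) * q.out := by group
        _ = (q.out : X)⁻¹ * ((q.out : X) * v * (q.out : X)⁻¹) * q.out := by rw [e2, e1]
        _ = v := by group
    · calc (q.out : X)⁻¹ * q'.out * t * ((q.out : X)⁻¹ * q'.out)⁻¹
          = (q.out : X)⁻¹ * ((q'.out : X) * t * (q'.out : X)⁻¹) * q.out := by group
        _ = (q.out : X)⁻¹ * ((q.out : X) * t * (q.out : X)⁻¹) * q.out := by rw [h1]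
        _ = t := by group
  have := Nat.card_le_card_of_injective f hf
  simpa using this

end Cfsg.Agent.Lib.DihSylow
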