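import Mathlib
import Cfsg.Agent.Lib.FrobBlock
import Cfsg.Agent.Lib.DihSylow
import Cfsg.Agent.Lib.DihedralAut
import Cfsg.Agent.Lib.FrobNPC
import Cfsg.Agent.Lib.SylowConjLemmas
import Cfsg.Agent.Lib.BlkOrth

/-!
# Groups with dihedral Sylow `2`-subgroups: the rotation subgroup

`DH P σ k`: `P` is a Sylow `2`-subgroup, `σ ∈ P` of order `2 ^ k` (`k ≥ 2`), and all elements of `P` off `⟨σ⟩`
are involutions inverting `⟨σ⟩`.  Centralizers of the non-identity elements of `⟨σ⟩` have normal `2`-complements.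
-/

set_option autoImplicit false
set_option linter.unusedSectionVars false
set_option linter.unusedVariables false
set_option linter.style.haveILetI false

namespace Cfsg.Agent.Lib.DihBlock

open Cfsg Subgroup
open Cfsg.Agent.Lib
open Cfsg.Agent.Lib.CharBasic
open Cfsg.Agent.Lib.DefectOne (cj cj_coe chi alpha alpha_one alpha_smul smul_ne_one NT classInner_alpha classInner_chi isIrr_chi)
open scoped ComplexConjugate

universe u

section Elem

variable {G : Type u} [Group G]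

theorem iter_conj {g x : G} {e : ℕ} (h : g * x * g⁻¹ = x ^ e) (i : ℕ) :
    g ^ i * x * (g ^ i)⁻¹ = x ^ (e ^ i) := by
  induction i with
  | zero => simp
  | succ i ih =>
    have h1 : g ^ (i + 1) * x * (g ^ (i + 1))⁻¹ = g * (g ^ i * x * (g ^ i)⁻¹) * g⁻¹ := by
      rw [pow_succ']
      group
    have h2 : ∀ m : ℕ, g * x ^ m * g⁻¹ = (g * x * g⁻¹) ^ m := fun m => (conj_pow).symm
    rw [h1, ih, h2, h, ← pow_mul, pow_succ, mul_comm (e ^ i) e]

/-- An element of odd order acting on a `2`-element by a power map fixes it. -/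
theorem fix_of_pow [Finite G] {g x : G} {s : ℕ} (hx : orderOf x = 2 ^ s) (hg : ¬ 2 ∣ orderOf g) {e : ℕ}
    (h : g * x * g⁻¹ = x ^ e) : g * x * g⁻¹ = x := by
  by_cases hs : s = 0
  · subst hs
    rw [pow_zero] at hx
    rw [orderOf_eq_one_iff.mp hx]
    simp
  have h1 := iter_conj h (orderOf g)
  rw [pow_orderOf_eq_one] at h1
  simp only [one_mul, inv_one, mul_one] at h1
  have hx1 : x ^ (e ^ orderOf g) = x ^ 1 := by rw [← h1, pow_one]
  have h2 : e ^ orderOf g ≡ 1 [MOD 2 ^ s] := by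
    rw [← hx]
    exact (pow_eq_pow_iff_modEq).1 hx1
  have hodd : Odd (orderOf g) := by
    rwa [← Nat.not_even_iff_odd, even_iff_two_dvd]
  have h3 := DihedralAut.eq_one_of_pow_eq_one hodd h2 hs
  have h4 : x ^ e = x ^ 1 := (pow_eq_pow_iff_modEq).2 (by rw [hx]; exact h3)
  rw [h, h4, pow_one]

/-- In a finite cyclic subgroup, elements of the same order generate the same subgroup. -/
theorem mem_zpowers_of_orderOf_eq [Finite G] {σ x y : G} (hx : x ∈ zpowers σ) (hy : y ∈ zpowers σ)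
    (hxy : orderOf x = orderOf y) : y ∈ zpowers x := by
  classical
  let X : zpowers σ := ⟨x, hx⟩
  let Y : zpowers σ := ⟨y, hy⟩
  have hoX : orderOf X = orderOf x := Subgroup.orderOf_mk _ _
  have hoY : orderOf Y = orderOf y := Subgroup.orderOf_mk _ _
  haveI : Fintype (zpowers σ) := Fintype.ofFinite _
  haveI : IsCyclic (zpowers σ) := inferInstance
  have hpos : 0 < orderOf X := orderOf_pos X
  have hle := IsCyclic.card_pow_eq_one_le (α := zpowers σ) hpos
  set S := Finset.univ.filter (fun a : zpowers σ => a ^ orderOf X = 1) with hS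
  haveI : Fintype (zpowers X) := Fintype.ofFinite _
  have hT : ((zpowers X : Set (zpowers σ)).toFinset) ⊆ S := by
    intro a ha
    rw [Set.mem_toFinset] at ha
    obtain ⟨i, rfl⟩ := ha
    simp only [hS, Finset.mem_filter, Finset.mem_univ, true_and]
    change (X ^ i) ^ orderOf X = 1
    rw [← zpow_natCast, ← zpow_mul, mul_comm, zpow_mul, zpow_natCast, pow_orderOf_eq_one, one_zpow]
  have hcard : ((zpowers X : Set (zpowers σ)).toFinset).card = orderOf X := by
    rw [Set.toFinset_card, ← Nat.card_eq_fintype_card]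
    exact Nat.card_zpowers X
  have heq : ((zpowers X : Set (zpowers σ)).toFinset) = S :=
    Finset.eq_of_subset_of_card_le hT (by rw [hcard]; exact hle)
  have hYS : Y ∈ S := by
    simp only [hS, Finset.mem_filter, Finset.mem_univ, true_and]
    rw [hoX, hxy, ← hoY]
    exact pow_orderOf_eq_one Y
  rw [← heq, Set.mem_toFinset] at hYS
  obtain ⟨i, hi⟩ := hYS
  refine ⟨i, ?_⟩
  have := congrArg Subtype.val hi
  simpa [X, Y] using this

end Elem

section Main

variable {G : Type u} [Group G] [Finite G]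

/-- The data of a dihedral Sylow `2`-subgroup. -/
structure DH (P : Sylow 2 G) (σ : G) (k : ℕ) : Prop where
  mem : σ ∈ (P : Subgroup G)
  ord : orderOf σ = 2 ^ k
  hk : 2 ≤ k
  refl : ∀ x ∈ (P : Subgroup G), x ∉ zpowers σ → x * x = 1 ∧ ∀ a ∈ zpowers σ, x * a * x⁻¹ = a⁻¹
  prod : ∀ x ∈ (P : Subgroup G), ∀ y ∈ (P : Subgroup G), x ∉ zpowers σ → y ∉ zpowers σ → x * y ∈ zpowers σ
  card : Nat.card (P : Subgroup G) = 2 ^ (k + 1)

variable {P : Sylow 2 G} {σ : G} {k : ℕ} (H : DH P σ k)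
include H

/-- The central involution. -/
def DH.z (H : DH P σ k) : G := σ ^ 2 ^ (k - 1)

theorem DH.le : zpowers σ ≤ (P : Subgroup G) := by
  rw [zpowers_le]
  exact H.mem

theorem DH.two_pow : 2 * 2 ^ (k - 1) = 2 ^ k := by
  have := H.hk
  rw [← pow_succ']
  congr 1
  omega

theorem DH.z_mem : H.z ∈ zpowers σ := pow_mem (mem_zpowers σ) _

theorem DH.z_mul_self : H.z * H.z = 1 := by
  unfold DH.z
  rw [← pow_add, ← two_mul, H.two_pow, ← H.ord, pow_orderOf_eq_one]

theorem DH.z_ne_one : H.z ≠ 1 := by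
  apply pow_ne_one_of_lt_orderOf (by positivity)
  rw [H.ord]
  exact Nat.pow_lt_pow_right (by norm_num) (by have := H.hk; omega)

theorem DH.comm_A {a b : G} (ha : a ∈ zpowers σ) (hb : b ∈ zpowers σ) : a * b = b * a := by
  obtain ⟨i, rfl⟩ := ha
  obtain ⟨j, rfl⟩ := hb
  simp only [← zpow_add, add_comm]

theorem DH.eq_of_sq {y : G} (hy : y ∈ zpowers σ) (h1 : y ≠ 1) (h2 : y * y = 1) : y = H.z := by
  obtain ⟨m, hm⟩ := (mem_powers_iff_mem_zpowers).2 hy
  have hm' : σ ^ m = y := hm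
  subst hm'
  rw [← pow_add, ← two_mul] at h2
  have h3 : 2 ^ k ∣ 2 * m := by
    rw [← H.ord]
    exact orderOf_dvd_of_pow_eq_one h2
  rw [← H.two_pow] at h3
  have h4 : 2 ^ (k - 1) ∣ m := Nat.dvd_of_mul_dvd_mul_left (by norm_num) h3
  obtain ⟨t, rfl⟩ := h4
  rw [pow_mul] at h1 ⊢
  change H.z ^ t ≠ 1 at h1
  change H.z ^ t = H.z
  rcases Nat.even_or_odd t with ht | ht
  · exfalso
    apply h1
    obtain ⟨v, rfl⟩ := ht
    rw [← two_mul, pow_mul, pow_two, H.z_mul_self, one_pow]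
  · obtain ⟨v, rfl⟩ := ht
    rw [pow_succ, pow_mul, pow_two, H.z_mul_self, one_pow, one_mul]

theorem DH.z_comm {x : G} (hx : x ∈ (P : Subgroup G)) : x * H.z = H.z * x := by
  by_cases h : x ∈ zpowers σ
  · exact H.comm_A h H.z_mem
  · have h1 := (H.refl x hx h).2 _ H.z_mem
    have h2 : H.z⁻¹ = H.z := inv_eq_of_mul_eq_one_left H.z_mul_self
    rw [h2] at h1
    calc x * H.z = x * H.z * x⁻¹ * x := by group
      _ = H.z * x := by rw [h1]

theorem DH.mem_of_sq {x : G} (hx : x ∈ (P : Subgroup G)) (h : x * x ≠ 1) : x ∈ zpowers σ := by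
  by_contra hn
  exact h (H.refl x hx hn).1

/-- An odd order element of `C(z)` normalizing a subgroup of `P` centralizes it. -/
theorem DH.fix {Q : Subgroup G} (hQ : Q ≤ (P : Subgroup G)) {g : G} (hg : g ∈ normalizer (Q : Set G))
    (hgz : g * H.z = H.z * g) (hodd : ¬ 2 ∣ orderOf g) {x : G} (hx : x ∈ Q) : g * x * g⁻¹ = x := by
  have hn := mem_normalizer_iff.1 hg
  -- rotations
  have hA : ∀ a ∈ Q, a ∈ zpowers σ → g * a * g⁻¹ = a := by
    intro a haQ haA
    by_cases h2 : a * a = 1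
    · by_cases h1 : a = 1
      · rw [h1]; simp
      · rw [H.eq_of_sq haA h1 h2, hgz]
        simp
    · have ha' : g * a * g⁻¹ ∈ Q := (hn a).1 haQ
      have hsq : (g * a * g⁻¹) * (g * a * g⁻¹) ≠ 1 := by
        intro h
        apply h2
        have : (g * a * g⁻¹) * (g * a * g⁻¹) = g * (a * a) * g⁻¹ := by group
        rw [this] at h
        have h3 : g * (a * a) = g := by
          calc g * (a * a) = g * (a * a) * g⁻¹ * g := by group
            _ = g := by rw [h]; simp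
        simpa using h3
      have hm := H.mem_of_sq (hQ ha') hsq
      have ho : orderOf a = orderOf (g * a * g⁻¹) := (BlockPrincipal.orderOf_conj_eq g a).symm
      obtain ⟨i, hi⟩ := mem_zpowers_of_orderOf_eq haA hm ho
      obtain ⟨s, hs⟩ : ∃ s : ℕ, orderOf a = 2 ^ s := by
        have h5 : orderOf a ∣ 2 ^ k := by
          rw [← H.ord]
          exact orderOf_dvd_of_mem_zpowers haA
        obtain ⟨s, -, hs⟩ := (Nat.dvd_prime_pow Nat.prime_two).1 h5
        exact ⟨s, hs⟩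
      have h6 : g * a * g⁻¹ ∈ zpowers a := ⟨i, hi⟩
      obtain ⟨e, he⟩ := (mem_powers_iff_mem_zpowers).2 h6
      exact fix_of_pow hs hodd he.symm
  by_cases hxA : x ∈ zpowers σ
  · exact hA x hx hxA
  have hxP := hQ hx
  have hx2 := (H.refl x hxP hxA).1
  set x' := g * x * g⁻¹ with hx'
  have hx'Q : x' ∈ Q := (hn x).1 hx
  have hx'A : x' ∉ zpowers σ := by
    intro hm
    have hsq : x' * x' = 1 := by
      have : x' * x' = g * (x * x) * g⁻¹ := by rw [hx']; group
      rw [this, hx2]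
      simp
    by_cases h1 : x' = 1
    · apply hxA
      have : x = 1 := by
        have h3 : g * x = g := by
          calc g * x = x' * g := by rw [hx']; group
            _ = g := by rw [h1, one_mul]
        simpa using h3
      rw [this]
      exact one_mem _
    · have h3 := H.eq_of_sq hm h1 hsq
      apply hxA
      have h4 : g * x = H.z * g := by
        calc g * x = x' * g := by rw [hx']; group
          _ = H.z * g := by rw [h3]
      have h5 : x = H.z := by
        rw [← hgz] at h4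
        exact mul_left_cancel h4
      rw [h5]
      exact H.z_mem
  set ρ := x * x' with hρ
  have hρA : ρ ∈ zpowers σ := H.prod x hxP x' (hQ hx'Q) hxA hx'A
  have hρQ : ρ ∈ Q := Q.mul_mem hx hx'Q
  have hρfix := hA ρ hρQ hρA
  have hx'eq : x' = x * ρ := by
    rw [hρ, ← mul_assoc, hx2, one_mul]
  have hiter : ∀ i : ℕ, g ^ i * x * (g ^ i)⁻¹ = x * ρ ^ i := by
    intro i
    induction i with
    | zero => simp
    | succ i ih =>
      have h1 : g ^ (i + 1) * x * (g ^ (i + 1))⁻¹ = g * (g ^ i * x * (g ^ i)⁻¹) * g⁻¹ := by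
        rw [pow_succ']
        group
      rw [h1, ih]
      have h2 : g * (x * ρ ^ i) * g⁻¹ = (g * x * g⁻¹) * (g * ρ * g⁻¹) ^ i := by
        rw [conj_pow]
        group
      rw [h2, ← hx', hρfix, hx'eq, pow_succ', mul_assoc]
  have h1 := hiter (orderOf g)
  rw [pow_orderOf_eq_one] at h1
  simp only [one_mul, inv_one, mul_one] at h1
  have hρ1 : ρ ^ orderOf g = 1 := by
    have := mul_left_cancel (a := x) (b := 1) (c := ρ ^ orderOf g) (by rw [mul_one]; exact h1)
    exact this.symm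
  have h5 : orderOf ρ ∣ 2 ^ k := by
    rw [← H.ord]
    exact orderOf_dvd_of_mem_zpowers hρA
  have h6 : orderOf ρ ∣ orderOf g := orderOf_dvd_of_pow_eq_one hρ1
  have h7 : orderOf ρ = 1 := by
    obtain ⟨s, -, hs⟩ := (Nat.dvd_prime_pow Nat.prime_two).1 h5
    rw [hs] at h6 ⊢
    rcases s with _ | s
    · simp
    · exfalso
      exact hodd ((dvd_pow_self 2 (Nat.succ_ne_zero s)).trans h6)
  have h8 : ρ = 1 := orderOf_eq_one_iff.mp h7
  rw [hx'eq, h8, mul_one]

theorem DH.le_centralizer_z : (P : Subgroup G) ≤ centralizer ({H.z} : Set G) := by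
  intro x hx
  rw [mem_centralizer_singleton_iff]
  exact H.z_comm hx

/-- `C(z)` has a normal `2`-complement. -/
theorem DH.frobHyp : FrobNPC.FrobHyp 2 (centralizer ({H.z} : Set G)) := by
  classical
  apply FrobNPC.frobHyp_of_sylow (P.subtype H.le_centralizer_z)
  intro Q hQ g hg hco
  have hQP : Q.map (centralizer ({H.z} : Set G)).subtype ≤ (P : Subgroup G) := by
    rintro _ ⟨a, ha, rfl⟩
    have h1 := hQ ha
    rw [Sylow.coe_subtype] at h1
    exact h1
  have hg' : (g : G) ∈ normalizer ((Q.map (centralizer ({H.z} : Set G)).subtype : Subgroup G) : Set G) := by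
    rw [mem_normalizer_iff]
    intro w
    have hn := mem_normalizer_iff.1 hg
    constructor
    · rintro ⟨a, ha, rfl⟩
      exact ⟨g * a * g⁻¹, (hn a).1 ha, rfl⟩
    · rintro ⟨a, ha, hw⟩
      have hwC : w ∈ centralizer ({H.z} : Set G) := by
        have h3 : (g : G)⁻¹ * ((g : G) * w * (g : G)⁻¹) * g = w := by group
        have hw' : (a : G) = (g : G) * w * (g : G)⁻¹ := hw
        rw [← h3, ← hw']
        exact ((centralizer ({H.z} : Set G)).mul_mem ((centralizer ({H.z} : Set G)).mul_mem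
          ((centralizer ({H.z} : Set G)).inv_mem g.2) a.2) g.2)
      have h5 : (⟨w, hwC⟩ : centralizer ({H.z} : Set G)) ∈ Q := by
        apply (hn _).2
        have h6 : g * ⟨w, hwC⟩ * g⁻¹ = a := by
          apply Subtype.ext
          exact hw.symm
        rw [h6]
        exact ha
      exact ⟨_, h5, rfl⟩
  have hgz : (g : G) * H.z = H.z * g := mem_centralizer_singleton_iff.1 g.2
  have hodd : ¬ 2 ∣ orderOf (g : G) := by
    rw [Subgroup.orderOf_coe, Nat.Prime.dvd_iff_not_coprime Nat.prime_two, not_not]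
    exact hco.symm
  rw [mem_centralizer_iff]
  intro a ha
  apply Subtype.ext
  have h := H.fix hQP hg' hgz hodd (x := a) ⟨a, ha, rfl⟩
  calc (a : G) * (g : G) = (g : G) * a * (g : G)⁻¹ * g := by rw [h]
    _ = (g : G) * a := by group

theorem DH.z_mem_zpowers {y : G} (hy : y ∈ zpowers σ) (hy1 : y ≠ 1) : H.z ∈ zpowers y := by
  have h5 : orderOf y ∣ 2 ^ k := by
    rw [← H.ord]
    exact orderOf_dvd_of_mem_zpowers hy
  obtain ⟨s, -, hs⟩ := (Nat.dvd_prime_pow Nat.prime_two).1 h5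
  rcases s with _ | s
  · rw [pow_zero] at hs
    exact absurd (orderOf_eq_one_iff.mp hs) hy1
  have h1 : y ^ 2 ^ s ≠ 1 := by
    apply pow_ne_one_of_lt_orderOf (by positivity)
    rw [hs]
    exact Nat.pow_lt_pow_right (by norm_num) (by omega)
  have h2 : y ^ 2 ^ s * y ^ 2 ^ s = 1 := by
    rw [← pow_add, ← two_mul, ← pow_succ', ← hs, pow_orderOf_eq_one]
  have h3 : y ^ 2 ^ s ∈ zpowers σ := pow_mem hy _
  have h4 := H.eq_of_sq h3 h1 h2
  rw [← h4]
  exact pow_mem (mem_zpowers y) _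

theorem DH.centralizer_le {y : G} (hy : y ∈ zpowers σ) (hy1 : y ≠ 1) :
    centralizer ({y} : Set G) ≤ centralizer ({H.z} : Set G) := by
  intro g hg
  rw [mem_centralizer_singleton_iff] at hg ⊢
  obtain ⟨i, hi⟩ := H.z_mem_zpowers hy hy1
  rw [← hi]
  exact (Commute.zpow_left (show Commute y g from hg.symm) i).symm.eq

/-- Normal `2`-complements of the centralizers. -/
theorem DH.exists_complement {y : G} (hy : y ∈ zpowers σ) (hy1 : y ≠ 1) :
    ∃ (N : Subgroup (centralizer ({y} : Set G))) (_ : N.Normal) (m : ℕ), ¬ 2 ∣ Nat.card N ∧ N.index = 2 ^ m := by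
  classical
  haveI : Fact (Nat.Prime 2) := ⟨Nat.prime_two⟩
  obtain ⟨N₀, hN₀, hco, m₀, hm₀⟩ := FrobNPC.exists_normal_complement H.frobHyp
  let φ : centralizer ({y} : Set G) →* (centralizer ({H.z} : Set G)) ⧸ N₀ :=
    (QuotientGroup.mk' N₀).comp (Subgroup.inclusion (H.centralizer_le hy hy1))
  have hidx : φ.ker.index ∣ 2 ^ m₀ := by
    rw [Subgroup.index_ker, ← hm₀]
    exact Subgroup.card_subgroup_dvd_card _
  obtain ⟨m, -, hm⟩ := (Nat.dvd_prime_pow Nat.prime_two).1 hidx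
  refine ⟨φ.ker, inferInstance, m, ?_, hm⟩
  -- the kernel embeds in `N₀`
  let f : φ.ker → N₀ := fun a => ⟨Subgroup.inclusion (H.centralizer_le hy hy1) a.1, by
    have h1 : φ a.1 = 1 := a.2
    exact (QuotientGroup.eq_one_iff _).1 h1⟩
  have hf : Function.Injective f := by
    intro a b hab
    have h1 := congrArg Subtype.val (congrArg Subtype.val hab)
    exact Subtype.ext (Subtype.ext h1)
  have hφ : Nat.card φ.ker ∣ Nat.card N₀ := by
    let f' : φ.ker →* N₀ :=
      { toFun := f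
        map_one' := rfl
        map_mul' := fun _ _ => rfl }
    exact Subgroup.card_dvd_of_injective f' hf
  intro h2
  have h3 := h2.trans hφ
  have h4 : Nat.Coprime 2 (Nat.card N₀) := hco.symm
  rw [Nat.Prime.coprime_iff_not_dvd Nat.prime_two] at h4
  exact h4 h3

theorem DH.commute_mem {y t : G} (hy : y ∈ zpowers σ) (hy2 : y * y ≠ 1) (ht : t ∈ (P : Subgroup G))
    (hc : t * y = y * t) : t ∈ zpowers σ := by
  by_contra hn
  have h1 := (H.refl t ht hn).2 y hy
  have h2 : t * y * t⁻¹ = y := by rw [hc]; group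
  rw [h2] at h1
  apply hy2
  calc y * y = y⁻¹ * y := by rw [← h1]
    _ = 1 := by group

theorem DH.pelt {y : G} (hy : y ∈ zpowers σ) : ∃ s : ℕ, orderOf y = 2 ^ s := by
  have h5 : orderOf y ∣ 2 ^ k := by
    rw [← H.ord]
    exact orderOf_dvd_of_mem_zpowers hy
  obtain ⟨s, -, hs⟩ := (Nat.dvd_prime_pow Nat.prime_two).1 h5
  exact ⟨s, hs⟩

theorem DH.card_A : Nat.card (zpowers σ) = 2 ^ k := by
  rw [Nat.card_zpowers, H.ord]

theorem DH.isPGroup_A : IsPGroup 2 (zpowers σ) := by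
  apply IsPGroup.of_card (n := k)
  exact H.card_A

/-- A `2`-subgroup centralizing a non-involution of the rotation group has order at most `2 ^ k`. -/
theorem DH.card_le {y : G} (hy : y ∈ zpowers σ) (hy2 : y * y ≠ 1) (T : Subgroup G) (hT : IsPGroup 2 T)
    (hTy : ∀ t ∈ T, t * y = y * t) (hyT : y ∈ T) : Nat.card T ≤ 2 ^ k := by
  classical
  haveI : Fact (Nat.Prime 2) := ⟨Nat.prime_two⟩
  obtain ⟨g, hg⟩ := SylowConjLemmas.exists_conj_mem P T hT
  have hy1 : g * y * g⁻¹ ∈ (P : Subgroup G) := hg y hyT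
  have hsq : (g * y * g⁻¹) * (g * y * g⁻¹) ≠ 1 := by
    intro h
    apply hy2
    have h1 : (g * y * g⁻¹) * (g * y * g⁻¹) = g * (y * y) * g⁻¹ := by group
    rw [h1] at h
    have h3 : g * (y * y) = g := by
      calc g * (y * y) = g * (y * y) * g⁻¹ * g := by group
        _ = g := by rw [h]; simp
    simpa using h3
  have hyA := H.mem_of_sq hy1 hsq
  have hmem : ∀ t ∈ T, g * t * g⁻¹ ∈ zpowers σ := by
    intro t ht
    apply H.commute_mem hyA hsq (hg t ht)
    have h1 := hTy t ht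
    calc (g * t * g⁻¹) * (g * y * g⁻¹) = g * (t * y) * g⁻¹ := by group
      _ = g * (y * t) * g⁻¹ := by rw [h1]
      _ = _ := by group
  let f : T → zpowers σ := fun t => ⟨g * t * g⁻¹, hmem t t.2⟩
  have hf : Function.Injective f := by
    intro a b hab
    have h1 : g * (a : G) * g⁻¹ = g * (b : G) * g⁻¹ := congrArg Subtype.val hab
    exact Subtype.ext (by simpa using h1)
  have h2 := Nat.card_le_card_of_injective f hf
  rwa [H.card_A] at h2

theorem DH.le_centralizer_A {y : G} (hy : y ∈ zpowers σ) : zpowers σ ≤ centralizer ({y} : Set G) := by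
  intro a ha
  rw [mem_centralizer_singleton_iff]
  exact H.comm_A ha hy

/-- The `2`-part of `|C(y)|` for a non-involution `y` of the rotation group. -/
theorem DH.index_of_sq {y : G} (hy : y ∈ zpowers σ) (hy2 : y * y ≠ 1) {N : Subgroup (centralizer ({y} : Set G))}
    (hN : ¬ 2 ∣ Nat.card N) {m : ℕ} (hQ : N.index = 2 ^ m) : m = k := by
  classical
  haveI : Fact (Nat.Prime 2) := ⟨Nat.prime_two⟩
  have hcard : Nat.card (centralizer ({y} : Set G)) = Nat.card N * 2 ^ m := by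
    rw [← hQ, N.card_mul_index]
  have hcop : Nat.Coprime (2 ^ k) (Nat.card N) :=
    Nat.Coprime.pow_left _ ((Nat.Prime.coprime_iff_not_dvd Nat.prime_two).2 hN)
  apply le_antisymm
  · -- upper bound
    have hA : IsPGroup 2 ((zpowers σ).subgroupOf (centralizer ({y} : Set G))) :=
      H.isPGroup_A.comap_of_injective _ (Subgroup.subtype_injective _)
    obtain ⟨Q, hQle⟩ := hA.exists_le_sylow
    have hdvd : 2 ^ m ∣ Nat.card (Q : Subgroup (centralizer ({y} : Set G))) := by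
      apply Q.pow_dvd_card_of_pow_dvd_card
      rw [hcard]
      exact Dvd.intro_left _ rfl
    let T : Subgroup G := (Q : Subgroup (centralizer ({y} : Set G))).map (centralizer ({y} : Set G)).subtype
    have hTc : Nat.card T = Nat.card (Q : Subgroup (centralizer ({y} : Set G))) :=
      Nat.card_congr (Subgroup.equivMapOfInjective _ _ (Subgroup.subtype_injective _)).symm.toEquiv
    have hT : IsPGroup 2 T := by
      have h1 := Q.isPGroup'
      exact IsPGroup.of_equiv h1 (Subgroup.equivMapOfInjective _ _ (Subgroup.subtype_injective _))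
    have hle := H.card_le hy hy2 T hT (by
      rintro _ ⟨t, ht, rfl⟩
      exact mem_centralizer_singleton_iff.1 t.2) (by
      refine ⟨⟨y, ?_⟩, ?_, rfl⟩
      · rw [mem_centralizer_singleton_iff]
      · apply hQle
        exact hy)
    rw [hTc] at hle
    have h2 := Nat.le_of_dvd Nat.card_pos hdvd
    exact (Nat.pow_le_pow_iff_right (by norm_num)).1 (h2.trans hle)
  · -- lower bound
    have h1 : 2 ^ k ∣ Nat.card (centralizer ({y} : Set G)) := by
      rw [← H.card_A]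
      have := Subgroup.card_dvd_of_le (H.le_centralizer_A hy)
      exact this
    rw [hcard] at h1
    have h2 := hcop.dvd_of_dvd_mul_left h1
    exact (Nat.pow_dvd_pow_iff_le_right (by norm_num)).1 h2

/-- The `2`-part of `|C(z)|`. -/
theorem DH.index_z {N : Subgroup (centralizer ({H.z} : Set G))}
    (hN : ¬ 2 ∣ Nat.card N) {m : ℕ} (hQ : N.index = 2 ^ m) : m = k + 1 := by
  classical
  haveI : Fact (Nat.Prime 2) := ⟨Nat.prime_two⟩
  have hcard : Nat.card (centralizer ({H.z} : Set G)) = Nat.card N * 2 ^ m := by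
    rw [← hQ, N.card_mul_index]
  have hcop : Nat.Coprime (2 ^ (k + 1)) (Nat.card N) :=
    Nat.Coprime.pow_left _ ((Nat.Prime.coprime_iff_not_dvd Nat.prime_two).2 hN)
  apply le_antisymm
  · have h1 : 2 ^ m ∣ Nat.card G := by
      refine Dvd.dvd.trans ?_ (Subgroup.card_subgroup_dvd_card (centralizer ({H.z} : Set G)))
      rw [hcard]
      exact Dvd.intro_left _ rfl
    have h2 := P.pow_dvd_card_of_pow_dvd_card h1
    have h3 : Nat.card P = 2 ^ (k + 1) := H.card
    rw [h3] at h2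
    exact (Nat.pow_dvd_pow_iff_le_right (by norm_num)).1 h2
  · have h1 : 2 ^ (k + 1) ∣ Nat.card (centralizer ({H.z} : Set G)) := by
      rw [← H.card]
      exact Subgroup.card_dvd_of_le H.le_centralizer_z
    rw [hcard] at h1
    have h2 := hcop.dvd_of_dvd_mul_left h1
    exact (Nat.pow_dvd_pow_iff_le_right (by norm_num)).1 h2

/-- A reflection. -/
theorem DH.exists_refl : ∃ τ ∈ (P : Subgroup G), τ ∉ zpowers σ := by
  by_contra hn
  push Not at hn
  have h1 : (P : Subgroup G) ≤ zpowers σ := hn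
  have h2 := Nat.le_of_dvd Nat.card_pos (Subgroup.card_dvd_of_le h1)
  rw [H.card, H.card_A] at h2
  have h3 : 2 ^ k < 2 ^ (k + 1) := Nat.pow_lt_pow_right (by norm_num) (by omega)
  omega

theorem DH.isConj_inv {y : G} (hy : y ∈ zpowers σ) : IsConj y y⁻¹ := by
  obtain ⟨τ, hτ, hτ'⟩ := H.exists_refl
  exact isConj_iff.2 ⟨τ, (H.refl τ hτ hτ').2 y hy⟩

/-- Elements of `N(A)` act on the elements of `A` by `±1`. -/
theorem DH.act_core {n y : G} (hn : ∀ a ∈ zpowers σ, n * a * n⁻¹ ∈ zpowers σ) (hy : y ∈ zpowers σ) (hy2 : y * y ≠ 1) :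
    n * y * n⁻¹ = y ∨ n * y * n⁻¹ = y⁻¹ := by
  classical
  haveI : Fact (Nat.Prime 2) := ⟨Nat.prime_two⟩
  have hpow : ∀ i : ℕ, ∀ a ∈ zpowers σ, n ^ i * a * (n ^ i)⁻¹ ∈ zpowers σ := by
    intro i
    induction i with
    | zero =>
      intro a ha
      simpa using ha
    | succ i ih =>
      intro a ha
      have h1 : n ^ (i + 1) * a * (n ^ (i + 1))⁻¹ = n * (n ^ i * a * (n ^ i)⁻¹) * n⁻¹ := by
        rw [pow_succ']
        group
      rw [h1]
      exact hn _ (ih a ha)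
  obtain ⟨a, m, hm, ho⟩ := Nat.exists_eq_two_pow_mul_odd (orderOf_pos n).ne'
  -- the odd part fixes `y`
  set w := n ^ 2 ^ a with hw
  have hwm : w ^ m = 1 := by
    rw [hw, ← pow_mul, ← ho, pow_orderOf_eq_one]
  have hwodd : ¬ 2 ∣ orderOf w := by
    intro h
    have h1 := h.trans (orderOf_dvd_of_pow_eq_one hwm)
    exact (Nat.not_even_iff_odd.2 hm) (even_iff_two_dvd.2 h1)
  obtain ⟨s, hs⟩ := H.pelt hy
  have hwy : w * y * w⁻¹ = y := by
    have h1 : w * y * w⁻¹ ∈ zpowers σ := hpow _ y hy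
    have h2 : orderOf y = orderOf (w * y * w⁻¹) := (BlockPrincipal.orderOf_conj_eq w y).symm
    have h3 := mem_zpowers_of_orderOf_eq hy h1 h2
    obtain ⟨e, he⟩ := (mem_powers_iff_mem_zpowers).2 h3
    exact fix_of_pow hs hwodd he.symm
  have hcw : Commute w y := by
    have : w * y = y * w := by
      calc w * y = w * y * w⁻¹ * w := by group
        _ = y * w := by rw [hwy]
    exact this
  -- the `2`-part
  have hmc : Nat.Coprime m (2 ^ a) := Nat.Coprime.pow_right _ (Nat.Coprime.symm ((Nat.Prime.coprime_iff_not_dvd Nat.prime_two).2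
    (fun h => (Nat.not_even_iff_odd.2 hm) (even_iff_two_dvd.2 h))))
  have htot : m ^ Nat.totient (2 ^ a) ≡ 1 [MOD 2 ^ a] := Nat.ModEq.pow_totient hmc
  have hNpos : 1 ≤ m ^ Nat.totient (2 ^ a) := Nat.one_le_pow _ _ hm.pos
  obtain ⟨t, ht⟩ := (Nat.modEq_iff_dvd' hNpos).1 htot.symm
  set N' := m ^ Nat.totient (2 ^ a) with hN'
  have hN1 : N' = 1 + 2 ^ a * t := by omega
  set h₀ := n ^ N' with hh₀
  have hh₀eq : h₀ = n * w ^ t := by
    rw [hh₀, hN1, pow_add, pow_one, hw, pow_mul]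
  have hconj : h₀ * y * h₀⁻¹ = n * y * n⁻¹ := by
    have h1 : w ^ t * y * (w ^ t)⁻¹ = y := by
      have h2 : Commute (w ^ t) y := hcw.pow_left t
      rw [h2.eq]
      group
    rw [hh₀eq]
    calc n * w ^ t * y * (n * w ^ t)⁻¹ = n * (w ^ t * y * (w ^ t)⁻¹) * n⁻¹ := by group
      _ = _ := by rw [h1]
  have htp : Nat.totient (2 ^ a) ≠ 0 := (Nat.totient_pos.2 (by positivity)).ne'
  have hh₀2 : h₀ ^ 2 ^ a = 1 := by
    obtain ⟨c, hc⟩ : m ∣ N' := dvd_pow_self m htp
    rw [hh₀, ← pow_mul, hc]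
    have h1 : m * c * 2 ^ a = orderOf n * c := by rw [ho]; ring
    rw [h1, pow_mul, pow_orderOf_eq_one, one_pow]
  have hh₀p : IsPGroup 2 (zpowers h₀) := by
    obtain ⟨b, -, hb⟩ := (Nat.dvd_prime_pow Nat.prime_two).1 (orderOf_dvd_of_pow_eq_one hh₀2)
    apply IsPGroup.of_card (n := b) (p := 2)
    rw [Nat.card_zpowers]
    exact hb
  have hnorm : zpowers h₀ ≤ normalizer ((zpowers σ : Subgroup G) : Set G) := by
    rw [zpowers_le, mem_normalizer_iff]
    intro b
    constructor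
    · exact fun hb => hpow _ b hb
    · intro hb
      -- invert via a positive power
      have h1 : h₀⁻¹ = h₀ ^ (orderOf h₀ - 1) := by
        rw [inv_eq_iff_mul_eq_one, ← pow_succ', Nat.sub_add_cancel (orderOf_pos h₀), pow_orderOf_eq_one]
      have h2 : h₀⁻¹ * (h₀ * b * h₀⁻¹) * h₀⁻¹⁻¹ ∈ zpowers σ := by
        have h3 := hpow (N' * (orderOf h₀ - 1)) _ hb
        have h4 : n ^ (N' * (orderOf h₀ - 1)) = h₀⁻¹ := by
          rw [pow_mul, ← hh₀, ← h1]
        rw [h4] at h3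
        exact h3
      have h5 : h₀⁻¹ * (h₀ * b * h₀⁻¹) * h₀⁻¹⁻¹ = b := by group
      rwa [h5] at h2
  have hT : IsPGroup 2 (zpowers h₀ ⊔ zpowers σ : Subgroup G) :=
    IsPGroup.to_sup_of_normal_right' hh₀p H.isPGroup_A hnorm
  obtain ⟨g, hg⟩ := SylowConjLemmas.exists_conj_mem P _ hT
  have hy₁ : g * y * g⁻¹ ∈ (P : Subgroup G) := hg y (Subgroup.mem_sup_right hy)
  have hh₁ : g * h₀ * g⁻¹ ∈ (P : Subgroup G) := hg h₀ (Subgroup.mem_sup_left (mem_zpowers h₀))
  have hsq : (g * y * g⁻¹) * (g * y * g⁻¹) ≠ 1 := by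
    intro h
    apply hy2
    have h1 : (g * y * g⁻¹) * (g * y * g⁻¹) = g * (y * y) * g⁻¹ := by group
    rw [h1] at h
    have h3 : g * (y * y) = g := by
      calc g * (y * y) = g * (y * y) * g⁻¹ * g := by group
        _ = g := by rw [h]; simp
    simpa using h3
  have hyA := H.mem_of_sq hy₁ hsq
  rw [← hconj]
  have hback : ∀ b c : G, g * b * g⁻¹ = g * c * g⁻¹ → b = c := by
    intro b c h
    simpa using h
  by_cases hA : g * h₀ * g⁻¹ ∈ zpowers σ
  · left
    apply hback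
    have h1 := H.comm_A hA hyA
    calc g * (h₀ * y * h₀⁻¹) * g⁻¹ = (g * h₀ * g⁻¹) * (g * y * g⁻¹) * (g * h₀ * g⁻¹)⁻¹ := by group
      _ = g * y * g⁻¹ * (g * h₀ * g⁻¹) * (g * h₀ * g⁻¹)⁻¹ := by rw [h1]
      _ = _ := by group
  · right
    apply hback
    have h1 := (H.refl _ hh₁ hA).2 _ hyA
    calc g * (h₀ * y * h₀⁻¹) * g⁻¹ = (g * h₀ * g⁻¹) * (g * y * g⁻¹) * (g * h₀ * g⁻¹)⁻¹ := by group
      _ = (g * y * g⁻¹)⁻¹ := h1
      _ = _ := by group

/-- Conjugate elements of the rotation subgroup are conjugate by an element normalizing it. -/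
theorem DH.exists_norm {y y' : G} (hy : y ∈ zpowers σ) (hy' : y' ∈ zpowers σ) (hy2 : y * y ≠ 1) (hc : IsConj y y') :
    ∃ n, (∀ a ∈ zpowers σ, n * a * n⁻¹ ∈ zpowers σ) ∧ n * y * n⁻¹ = y' := by
  classical
  haveI : Fact (Nat.Prime 2) := ⟨Nat.prime_two⟩
  obtain ⟨g, hg⟩ := isConj_iff.1 hc
  have hy'2 : y' * y' ≠ 1 := by
    intro h
    apply hy2
    rw [← hg] at h
    have h1 : (g * y * g⁻¹) * (g * y * g⁻¹) = g * (y * y) * g⁻¹ := by group
    rw [h1] at h
    have h3 : g * (y * y) = g := by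
      calc g * (y * y) = g * (y * y) * g⁻¹ * g := by group
        _ = g := by rw [h]; simp
    simpa using h3
  set X := centralizer ({y'} : Set G) with hX
  -- the two cyclic subgroups
  let A₂ : Subgroup G := (zpowers σ).map (MulAut.conj g).toMonoidHom
  have hA₁X : zpowers σ ≤ X := H.le_centralizer_A hy'
  have hA₂X : A₂ ≤ X := by
    rintro _ ⟨a, ha, rfl⟩
    rw [hX, mem_centralizer_singleton_iff]
    have h1 := H.comm_A ha hy
    change g * a * g⁻¹ * y' = y' * (g * a * g⁻¹)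
    rw [← hg]
    calc g * a * g⁻¹ * (g * y * g⁻¹) = g * (a * y) * g⁻¹ := by group
      _ = g * (y * a) * g⁻¹ := by rw [h1]
      _ = _ := by group
  have hcA₂ : Nat.card A₂ = 2 ^ k := by
    rw [← H.card_A]
    exact Nat.card_congr (Subgroup.equivMapOfInjective _ _ (MulEquiv.injective _)).symm.toEquiv
  have hpA₂ : IsPGroup 2 A₂ := IsPGroup.of_card (n := k) hcA₂
  have hy'A₂ : y' ∈ A₂ := ⟨y, hy, hg⟩
  have hmain : ∀ (A' : Subgroup G), A' ≤ X → IsPGroup 2 A' → Nat.card A' = 2 ^ k → y' ∈ A' →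
      ∃ Q : Sylow 2 X, (Q : Subgroup X) = A'.subgroupOf X := by
    intro A' hA'X hp hc' hyA'
    have h1 : IsPGroup 2 (A'.subgroupOf X) := hp.comap_of_injective _ (Subgroup.subtype_injective _)
    obtain ⟨Q, hQle⟩ := h1.exists_le_sylow
    refine ⟨Q, ?_⟩
    symm
    apply Subgroup.eq_of_le_of_card_ge hQle
    have hc2 : Nat.card (A'.subgroupOf X) = 2 ^ k := by
      rw [← hc']
      exact Nat.card_congr (Subgroup.subgroupOfEquivOfLe hA'X).toEquiv
    rw [hc2]
    let T : Subgroup G := (Q : Subgroup X).map X.subtype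
    have hTc : Nat.card T = Nat.card (Q : Subgroup X) :=
      Nat.card_congr (Subgroup.equivMapOfInjective _ _ (Subgroup.subtype_injective _)).symm.toEquiv
    have hT : IsPGroup 2 T :=
      IsPGroup.of_equiv Q.isPGroup' (Subgroup.equivMapOfInjective _ _ (Subgroup.subtype_injective _))
    rw [← hTc]
    apply H.card_le hy' hy'2 T hT
    · rintro _ ⟨t, ht, rfl⟩
      exact mem_centralizer_singleton_iff.1 t.2
    · exact ⟨⟨y', hA'X hyA'⟩, hQle hyA', rfl⟩
  obtain ⟨Q₁, hQ₁⟩ := hmain _ hA₁X H.isPGroup_A H.card_A hy'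
  obtain ⟨Q₂, hQ₂⟩ := hmain _ hA₂X hpA₂ hcA₂ hy'A₂
  obtain ⟨c, hc⟩ := MulAction.exists_smul_eq X Q₂ Q₁
  refine ⟨(c : G) * g, ?_, ?_⟩
  · intro a ha
    have h1 : (⟨g * a * g⁻¹, hA₂X ⟨a, ha, rfl⟩⟩ : X) ∈ (Q₂ : Subgroup X) := by
      rw [hQ₂]
      exact ⟨a, ha, rfl⟩
    have h2 : c * ⟨g * a * g⁻¹, hA₂X ⟨a, ha, rfl⟩⟩ * c⁻¹ ∈ ((c • Q₂ : Sylow 2 X) : Subgroup X) := by
      rw [Sylow.smul_def, Sylow.pointwise_smul_def]
      exact ⟨_, h1, rfl⟩
    rw [hc, hQ₁] at h2
    have h3 : (c : G) * (g * a * g⁻¹) * (c : G)⁻¹ ∈ zpowers σ := h2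
    have h4 : (c : G) * g * a * ((c : G) * g)⁻¹ = (c : G) * (g * a * g⁻¹) * (c : G)⁻¹ := by group
    rw [h4]
    exact h3
  · have h1 : (c : G) * y' = y' * c := mem_centralizer_singleton_iff.1 c.2
    calc (c : G) * g * y * ((c : G) * g)⁻¹ = (c : G) * (g * y * g⁻¹) * (c : G)⁻¹ := by group
      _ = (c : G) * y' * (c : G)⁻¹ := by rw [hg]
      _ = y' * c * (c : G)⁻¹ := by rw [h1]
      _ = y' := by group

/-- Fusion in the rotation subgroup. -/
theorem DH.fusion {y y' : G} (hy : y ∈ zpowers σ) (hy' : y' ∈ zpowers σ) (hy1 : y ≠ 1) (hc : IsConj y y') :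
    y' = y ∨ y' = y⁻¹ := by
  by_cases hy2 : y * y = 1
  · left
    have h1 := H.eq_of_sq hy hy1 hy2
    obtain ⟨g, hg⟩ := isConj_iff.1 hc
    have hy'2 : y' * y' = 1 := by
      rw [← hg]
      have h3 : (g * y * g⁻¹) * (g * y * g⁻¹) = g * (y * y) * g⁻¹ := by group
      rw [h3, hy2]
      simp
    have hy'1 : y' ≠ 1 := by
      intro h
      apply hy1
      rw [h] at hg
      have h3 : g * y = g := by
        calc g * y = g * y * g⁻¹ * g := by group
          _ = g := by rw [hg]; simp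
      simpa using h3
    rw [H.eq_of_sq hy' hy'1 hy'2, h1]
  · obtain ⟨n, hn, hny⟩ := H.exists_norm hy hy' hy2 hc
    rw [← hny]
    exact H.act_core hn hy hy2

end Main

section Char

variable {G : Type u} [Group G] [Fintype G] {M : Ideal AlgInt} {P : Sylow 2 G} {σ : G} {k : ℕ} (H : DH P σ k)
include H

set_option quotPrecheck false in
local notation "𝔸" => ↥(zpowers σ)

theorem DH.commA (a b : 𝔸) : a * b = b * a := Subtype.ext (H.comm_A a.2 b.2)

theorem DH.sum_of_index (hM : IsPModular 2 M) {y : G} (hy : y ∈ zpowers σ)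
    (N : Subgroup (centralizer ({y} : Set G))) [N.Normal] (hN : ¬ 2 ∣ Nat.card N) (m : ℕ) (hQ : N.index = 2 ^ m) :
    ∑ χ ∈ SingConst.B₀ M G, (χ : G → ℂ) y * conj ((χ : G → ℂ) y) = 2 ^ m := by
  classical
  letI : Fintype (centralizer ({y} : Set G)) := Fintype.ofFinite _
  have h1 := BlockSection.sum_principal_norm (G := G) (H := centralizer ({y} : Set G)) hM
      (z := y) (H.pelt hy) rfl
  rw [SingConst.finsum_B₀] at h1
  rw [h1, SingConst.sum_principal_deg_sq hM N hN m hQ, hQ]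
  push_cast
  rfl

theorem DH.sum_norm_sq (hM : IsPModular 2 M) {y : G} (hy : y ∈ zpowers σ) (hy2 : y * y ≠ 1) :
    ∑ χ ∈ SingConst.B₀ M G, (χ : G → ℂ) y * conj ((χ : G → ℂ) y) = 2 ^ k := by
  have hy1 : y ≠ 1 := by
    rintro rfl
    simp at hy2
  obtain ⟨N, hNn, m, hN, hQ⟩ := H.exists_complement hy hy1
  haveI := hNn
  rw [H.sum_of_index hM hy N hN m hQ, H.index_of_sq hy hy2 hN hQ]

theorem DH.sum_norm_z (hM : IsPModular 2 M) :
    ∑ χ ∈ SingConst.B₀ M G, (χ : G → ℂ) H.z * conj ((χ : G → ℂ) H.z) = 2 ^ (k + 1) := by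
  obtain ⟨N, hNn, m, hN, hQ⟩ := H.exists_complement H.z_mem H.z_ne_one
  haveI := hNn
  rw [H.sum_of_index hM H.z_mem N hN m hQ, H.index_z hN hQ]

theorem DH.sum_pp (hM : IsPModular 2 M) {y y' : G} (hy : y ∈ zpowers σ) (hy1 : y ≠ 1) (hy' : y' ∈ zpowers σ)
    [Decidable (y' = y)] [Decidable (y' = y⁻¹)] :
    ∑ χ ∈ SingConst.B₀ M G, (χ : G → ℂ) y * conj ((χ : G → ℂ) y') =
      2 ^ k * ((if y' = y then 1 else 0) + (if y' = y⁻¹ then 1 else 0)) := by
  classical
  by_cases hc : IsConj y y'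
  · have hval : ∀ χ : IrrCharacter G, (χ : G → ℂ) y' = (χ : G → ℂ) y := by
      intro χ
      obtain ⟨c, rfl⟩ := isConj_iff.1 hc
      exact CharBasic.isClassFunction_of_isCharacter (CharBasic.IsIrrCharacter.isCharacter χ.2) y c
    simp only [hval]
    by_cases hy2 : y * y = 1
    · have h1 := H.eq_of_sq hy hy1 hy2
      have h2 : y⁻¹ = y := inv_eq_of_mul_eq_one_left hy2
      have h3 : y' = y := by
        rcases H.fusion hy hy' hy1 hc with h | h
        · exact h
        · rw [h, h2]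
      rw [if_pos h3, if_pos (by rw [h3, h2]), h1, H.sum_norm_z hM]
      ring
    · rw [H.sum_norm_sq hM hy hy2]
      have h2 : y⁻¹ ≠ y := by
        intro h
        apply hy2
        calc y * y = y⁻¹ * y := by rw [h]
          _ = 1 := by group
      rcases H.fusion hy hy' hy1 hc with h | h
      · rw [if_pos h, if_neg (by rw [h]; exact h2.symm)]
        ring
      · rw [if_neg (by rw [h]; exact h2), if_pos h]
        ring
  · have h := BlockSection.sum_block_pelement_eq_zero hM (H.pelt hy) (H.pelt hy') hc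
      (BlockNormal.isPBlock_principalBlock M)
    rw [SingConst.finsum_B₀] at h
    rw [h, if_neg, if_neg]
    · ring
    · rintro rfl
      exact hc (H.isConj_inv hy)
    · rintro rfl
      exact hc (IsConj.refl _)

omit H in
theorem alpha_inv_apply {Q : Subgroup G} (f : ↥Q →* ℂˣ) (y : ↥Q) : alpha f y⁻¹ = alpha f⁻¹ y := by
  simp [alpha, chi]

theorem DH.sum_bb_mul [Fintype 𝔸] (hM : IsPModular 2 M) {ψ ψ' : 𝔸 →* ℂˣ} (hψ : ψ ≠ 1) (hψ' : ψ' ≠ 1)
    [Decidable (ψ' = ψ)] [Decidable (ψ'⁻¹ = ψ)] :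
    ∑ χ ∈ SingConst.B₀ M G, FrobBlock.bb (χ : G → ℂ) ψ * conj (FrobBlock.bb (χ : G → ℂ) ψ') =
      2 + (if ψ' = ψ then 1 else 0) + (if ψ'⁻¹ = ψ then 1 else 0) := by
  classical
  set D : ℂ := (Nat.card 𝔸 : ℂ)⁻¹ with hD
  have hq : (Nat.card 𝔸 : ℂ) = 2 ^ k := by
    rw [H.card_A]
    push_cast
    rfl
  have hA0 : (Nat.card 𝔸 : ℂ) ≠ 0 := by exact_mod_cast Nat.card_pos.ne'
  have hDr : conj D = D := by
    rw [hD, map_inv₀, Complex.conj_natCast]
  have h1 : ∑ χ ∈ SingConst.B₀ M G, FrobBlock.bb (χ : G → ℂ) ψ * conj (FrobBlock.bb (χ : G → ℂ) ψ') =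
      D * conj D * ∑ y : 𝔸, ∑ y' : 𝔸, conj (alpha ψ y) * alpha ψ' y' *
        ∑ χ ∈ SingConst.B₀ M G, (χ : G → ℂ) y * conj ((χ : G → ℂ) y') :=
    FrobBlock.sum_mul_conj_expand (SingConst.B₀ M G) (fun (χ : IrrCharacter G) (y : 𝔸) => (χ : G → ℂ) y)
      (alpha ψ) (alpha ψ') D
  have hK : ∀ y : 𝔸, ∑ y' : 𝔸, conj (alpha ψ y) * alpha ψ' y' *
        ∑ χ ∈ SingConst.B₀ M G, (χ : G → ℂ) y * conj ((χ : G → ℂ) y') =
      (Nat.card 𝔸 : ℂ) * (conj (alpha ψ y) * (alpha ψ' y + alpha ψ'⁻¹ y)) := by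
    intro y
    by_cases hy : y = 1
    · rw [hy]
      simp [alpha_one]
    · have hy' : (y : G) ≠ 1 := fun h => hy (Subtype.ext h)
      have h2 : ∀ y' : 𝔸, conj (alpha ψ y) * alpha ψ' y' *
          ∑ χ ∈ SingConst.B₀ M G, (χ : G → ℂ) y * conj ((χ : G → ℂ) y') =
          (Nat.card 𝔸 : ℂ) * conj (alpha ψ y) * ((if y' = y then alpha ψ' y' else 0) + (if y' = y⁻¹ then alpha ψ' y' else 0)) := by
        intro y'
        rw [H.sum_pp hM y.2 hy' y'.2, hq]
        have e1 : ((y' : G) = (y : G)) ↔ y' = y := Subtype.ext_iff.symm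
        have e2 : ((y' : G) = (y : G)⁻¹) ↔ y' = y⁻¹ := by
          rw [Subtype.ext_iff]
          rfl
        by_cases h3 : y' = y
        · have h3' := e1.2 h3
          by_cases h4 : y' = y⁻¹
          · have h4' := e2.2 h4
            rw [if_pos h3', if_pos h4', if_pos h3, if_pos h4]
            ring
          · have h4' := mt e2.1 h4
            rw [if_pos h3', if_neg h4', if_pos h3, if_neg h4]
            ring
        · have h3' := mt e1.1 h3
          by_cases h4 : y' = y⁻¹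
          · have h4' := e2.2 h4
            rw [if_neg h3', if_pos h4', if_neg h3, if_pos h4]
            ring
          · have h4' := mt e2.1 h4
            rw [if_neg h3', if_neg h4', if_neg h3, if_neg h4]
            ring
      rw [Finset.sum_congr rfl (fun y' _ => h2 y'), ← Finset.mul_sum, Finset.sum_add_distrib,
        Finset.sum_ite_eq' Finset.univ y, Finset.sum_ite_eq' Finset.univ y⁻¹, if_pos (Finset.mem_univ _),
        if_pos (Finset.mem_univ _), alpha_inv_apply]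
      ring
  have h3 : classInner (alpha ψ') (alpha ψ) + classInner (alpha ψ'⁻¹) (alpha ψ) =
      D * ∑ y : 𝔸, conj (alpha ψ y) * (alpha ψ' y + alpha ψ'⁻¹ y) := by
    unfold classInner
    rw [← hD, ← mul_add, ← Finset.sum_add_distrib]
    congr 1
    refine Finset.sum_congr rfl fun y _ => ?_
    ring
  rw [h1, hDr, Finset.sum_congr rfl (fun y _ => hK y), ← Finset.mul_sum]
  have h4 : D * D * ((Nat.card 𝔸 : ℂ) * ∑ y : 𝔸, conj (alpha ψ y) * (alpha ψ' y + alpha ψ'⁻¹ y)) =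
      D * ∑ y : 𝔸, conj (alpha ψ y) * (alpha ψ' y + alpha ψ'⁻¹ y) := by
    rw [hD]
    field_simp
  have hψ'' : ψ'⁻¹ ≠ 1 := by
    intro h
    apply hψ'
    ext a
    have h2 := congrArg (fun f : 𝔸 →* ℂˣ => ((f a⁻¹ : ℂˣ) : ℂ)) h
    simpa using h2
  rw [h4, ← h3, classInner_alpha hψ' hψ, classInner_alpha hψ'' hψ]
  ring

theorem DH.bb_inv [Fintype 𝔸] (χ : IrrCharacter G) (ψ : 𝔸 →* ℂˣ) :
    FrobBlock.bb (χ : G → ℂ) ψ⁻¹ = FrobBlock.bb (χ : G → ℂ) ψ := by
  unfold FrobBlock.bb classInner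
  congr 1
  refine Fintype.sum_equiv (Equiv.inv 𝔸) _ _ fun a => ?_
  have hval : (χ : G → ℂ) ((a⁻¹ : 𝔸) : G) = (χ : G → ℂ) (a : G) := by
    obtain ⟨c, hc⟩ := isConj_iff.1 (H.isConj_inv a.2)
    rw [Subgroup.coe_inv, ← hc]
    exact (CharBasic.isClassFunction_of_isCharacter (CharBasic.IsIrrCharacter.isCharacter χ.2) (a : G) c)
  simp only [Equiv.inv_apply]
  rw [hval, ← alpha_inv_apply]

theorem DH.sum_bb_reg [Fintype 𝔸] (hM : IsPModular 2 M) (ψ : 𝔸 →* ℂˣ) {g : G} (hg : ¬ 2 ∣ orderOf g) :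
    ∑ χ ∈ SingConst.B₀ M G, FrobBlock.bb (χ : G → ℂ) ψ * conj ((χ : G → ℂ) g) = 0 := by
  classical
  unfold FrobBlock.bb classInner
  simp_rw [mul_assoc, Finset.sum_mul, Finset.mul_sum]
  rw [Finset.sum_comm]
  refine Finset.sum_eq_zero fun y _ => ?_
  by_cases hy : y = 1
  · rw [hy]
    simp [alpha_one]
  · have hy' : (y : G) ≠ 1 := fun h => hy (Subtype.ext h)
    have h1 := SingConst.sum_reg hM (H.pelt y.2) hy' hg
    have h2 : ∑ χ ∈ SingConst.B₀ M G, (Nat.card 𝔸 : ℂ)⁻¹ * ((χ : G → ℂ) y * conj (alpha ψ y) * conj ((χ : G → ℂ) g)) =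
        (Nat.card 𝔸 : ℂ)⁻¹ * conj (alpha ψ y) * ∑ χ ∈ SingConst.B₀ M G, (χ : G → ℂ) y * conj ((χ : G → ℂ) g) := by
      rw [Finset.mul_sum]
      refine Finset.sum_congr rfl fun χ _ => ?_
      ring
    rw [h2, h1, mul_zero]

theorem DH.value_formula [Fintype 𝔸] [Fintype (𝔸 →* ℂˣ)] (χ : IrrCharacter G) {y : 𝔸} (hy : y ≠ 1) :
    ∑ ψ : 𝔸 →* ℂˣ, FrobBlock.bb (χ : G → ℂ) ψ * ((ψ y : ℂˣ) : ℂ) = (χ : G → ℂ) y := by
  classical
  have h1 := FrobBlock.sum_classInner_mul H.commA (fun a : 𝔸 => (χ : G → ℂ) a) y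
  have hs : ∑ l : 𝔸 →* ℂˣ, ((l y : ℂˣ) : ℂ) = 0 := by
    rw [FrobBlock.sum_dual H.commA, if_neg hy]
  simp_rw [FrobBlock.bb_eq, sub_mul]
  rw [Finset.sum_sub_distrib, h1, ← Finset.mul_sum, hs, mul_zero, sub_zero]

theorem DH.bb_self_one [Fintype 𝔸] (χ : IrrCharacter G) :
    FrobBlock.bb (χ : G → ℂ) (1 : 𝔸 →* ℂˣ) = 0 := by
  rw [FrobBlock.bb_eq, sub_self]

omit H in
theorem bb_irrOne {Q : Subgroup G} [Fintype Q] {ψ : ↥Q →* ℂˣ} (hψ : ψ ≠ 1) :
    FrobBlock.bb ((BlockNormal.irrOne G : IrrCharacter G) : G → ℂ) ψ = -1 := by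
  classical
  rw [FrobBlock.bb_eq]
  have h1 : (fun a : ↥Q => ((BlockNormal.irrOne G : IrrCharacter G) : G → ℂ) a) = chi (1 : ↥Q →* ℂˣ) := by
    funext a
    simp [BlockNormal.irrOne, chi]
  rw [h1]
  change classInner (chi (1 : ↥Q →* ℂˣ)) (chi ψ) - classInner (chi (1 : ↥Q →* ℂˣ)) (chi (1 : ↥Q →* ℂˣ)) = -1
  rw [DefectOne.classInner_chi, DefectOne.classInner_chi, if_neg hψ.symm, if_pos rfl]
  ring

/-- The characters of the principal block do not vanish at the central involution. -/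
theorem DH.z_ne_zero (hM : IsPModular 2 M) {χ : IrrCharacter G} (hχ : χ ∈ principalBlock M G) :
    (χ : G → ℂ) H.z ≠ 0 := by
  intro h0
  have h1 := hχ H.z
  have h2 : centralChar (fun _ : G => (1 : ℂ)) H.z - centralChar (χ : G → ℂ) H.z =
      ((centralizer ({H.z} : Set G)).index : ℂ) := by
    unfold centralChar
    rw [h0]
    simp
  rw [h2, BlockLocal.memLocalIdeal_natCast_iff hM] at h1
  haveI : (P : Subgroup G).FiniteIndex := inferInstance
  exact P.not_dvd_index (h1.trans (Subgroup.index_dvd_of_le H.le_centralizer_z))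

end Char

end Cfsg.Agent.Lib.DihBlock
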