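import Mathlib
import Cfsg.Agent.Lib.FrobBlock

/-!
# The integer lattice computation for the principal `2`-block with dihedral Sylow subgroup.
-/

set_option autoImplicit false
set_option linter.unusedSectionVars false
set_option linter.unusedVariables false
set_option linter.style.haveILetI false

namespace Cfsg.Agent.Lib.DihLattice

open Cfsg.Agent.Lib

section
variable {ι : Type*} [DecidableEq ι]

theorem sq_one_cases {a : ℤ} (h : a ^ 2 = 1) : a = 1 ∨ a = -1 := by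
  have : (a - 1) * (a + 1) = 0 := by ring_nf; linarith
  rcases mul_eq_zero.1 this with h1 | h1
  · left; linarith
  · right; linarith

theorem entries_one (S : Finset ι) (w : ι → ℤ) (h : ∑ i ∈ S, w i ^ 2 = 1) :
    ∃ a ∈ S, w a ^ 2 = 1 ∧ ∀ i ∈ S, i ≠ a → w i = 0 := by
  have hex : ∃ a ∈ S, w a ≠ 0 := by
    by_contra hall
    push Not at hall
    rw [Finset.sum_eq_zero (fun i hi => by rw [hall i hi]; norm_num)] at h
    norm_num at h
  obtain ⟨a, ha, hne⟩ := hex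
  have h1 := Finset.add_sum_erase S (fun i => w i ^ 2) ha
  have h2 : 0 ≤ ∑ i ∈ S.erase a, w i ^ 2 := Finset.sum_nonneg fun i _ => sq_nonneg _
  have h3 : 1 ≤ w a ^ 2 := by
    have := sq_pos_of_ne_zero hne
    omega
  have h4 : w a ^ 2 = 1 := by omega
  have h5 : ∑ i ∈ S.erase a, w i ^ 2 = 0 := by omega
  refine ⟨a, ha, h4, fun i hi hia => ?_⟩
  have h6 := (Finset.sum_eq_zero_iff_of_nonneg (fun i _ => sq_nonneg (w i))).1 h5 i (Finset.mem_erase.2 ⟨hia, hi⟩)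
  exact pow_eq_zero_iff (by norm_num) |>.1 h6

theorem entries_two (S : Finset ι) (w : ι → ℤ) (h : ∑ i ∈ S, w i ^ 2 = 2) :
    ∃ a ∈ S, ∃ b ∈ S, a ≠ b ∧ w a ^ 2 = 1 ∧ w b ^ 2 = 1 ∧ ∀ i ∈ S, i ≠ a → i ≠ b → w i = 0 := by
  have hex : ∃ a ∈ S, w a ≠ 0 := by
    by_contra hall
    push Not at hall
    rw [Finset.sum_eq_zero (fun i hi => by rw [hall i hi]; norm_num)] at h
    norm_num at h
  obtain ⟨a, ha, hne⟩ := hex
  have h1 := Finset.add_sum_erase S (fun i => w i ^ 2) ha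
  have h2 : 0 ≤ ∑ i ∈ S.erase a, w i ^ 2 := Finset.sum_nonneg fun i _ => sq_nonneg _
  have h3 : 1 ≤ w a ^ 2 := by
    have := sq_pos_of_ne_zero hne
    omega
  have h4 : w a ^ 2 = 1 := by
    have h5 : w a ^ 2 ≤ 2 := by omega
    have h6 : |w a| ^ 2 ≤ 2 := by rwa [sq_abs]
    have h7 : |w a| < 2 := by nlinarith [abs_nonneg (w a)]
    have h8 : |w a| = 1 := by
      have h9 : 0 < |w a| := abs_pos.2 hne
      omega
    rw [← sq_abs, h8]
    norm_num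
  have h5 : ∑ i ∈ S.erase a, w i ^ 2 = 1 := by omega
  obtain ⟨b, hb, hb1, hb2⟩ := entries_one _ w h5
  refine ⟨a, ha, b, Finset.mem_of_mem_erase hb, (Finset.ne_of_mem_erase hb).symm, h4, hb1, ?_⟩
  intro i hi hia hib
  exact hb2 i (Finset.mem_erase.2 ⟨hia, hi⟩) hib

theorem sum_mul_ite (B : Finset ι) (f : ι → ℤ) {a : ι} (ha : a ∈ B) :
    ∑ i ∈ B, f i * (if i = a then 1 else 0) = f a := by
  simp [ha]

variable {J : Type*} [Fintype J]

theorem sum_decomp₁ (B : Finset ι) (i₀ : ι) (e : J → ι) (he : Function.Injective e) (hi₀ : i₀ ∈ B)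
    (heB : ∀ j, e j ∈ B) (h1 : ∀ j, e j ≠ i₀) (f : ι → ℤ) :
    ∑ i ∈ B, f i = f i₀ + ∑ j, f (e j) + ∑ i ∈ (B.erase i₀) \ Finset.univ.image e, f i := by
  rw [← Finset.add_sum_erase B f hi₀, add_assoc]
  congr 1
  have hsub : Finset.univ.image e ⊆ B.erase i₀ := by
    intro i hi
    obtain ⟨j, -, rfl⟩ := Finset.mem_image.1 hi
    exact Finset.mem_erase.2 ⟨h1 j, heB j⟩
  rw [← Finset.sum_sdiff hsub, Finset.sum_image he.injOn, add_comm]

theorem sum_decomp₂ (B : Finset ι) (i₀ χ₁ : ι) (e : J → ι) (he : Function.Injective e) (hi₀ : i₀ ∈ B) (hχ₁ : χ₁ ∈ B)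
    (hne : χ₁ ≠ i₀) (heB : ∀ j, e j ∈ B) (h1 : ∀ j, e j ≠ i₀) (h2 : ∀ j, e j ≠ χ₁) (f : ι → ℤ) :
    ∑ i ∈ B, f i = f i₀ + f χ₁ + ∑ j, f (e j) + ∑ i ∈ ((B.erase i₀).erase χ₁) \ Finset.univ.image e, f i := by
  rw [← Finset.add_sum_erase B f hi₀, ← Finset.add_sum_erase (B.erase i₀) f (Finset.mem_erase.2 ⟨hne, hχ₁⟩),
    add_assoc, add_assoc]
  congr 2
  have hsub : Finset.univ.image e ⊆ (B.erase i₀).erase χ₁ := by
    intro i hi
    obtain ⟨j, -, rfl⟩ := Finset.mem_image.1 hi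
    exact Finset.mem_erase.2 ⟨h2 j, Finset.mem_erase.2 ⟨h1 j, heB j⟩⟩
  rw [← Finset.sum_sdiff hsub, Finset.sum_image he.injOn, add_comm]

/-- The last step: the two further constituents of the involution character. -/
theorem finish (B : Finset ι) (i₀ χ₁ : ι) (e : J → ι) (he : Function.Injective e) (hi₀ : i₀ ∈ B) (hχ₁ : χ₁ ∈ B)
    (hne : χ₁ ≠ i₀) (heB : ∀ j, e j ∈ B) (h1 : ∀ j, e j ≠ i₀) (h2 : ∀ j, e j ≠ χ₁) (v : ι → ℤ) (δ : ℤ)
    (hδ : δ = 1 ∨ δ = -1) (hv0 : v i₀ = -1) (hv1 : v χ₁ = -δ) (hve : ∀ j, v (e j) = 0)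
    (hvv : ∑ i ∈ B, v i * v i = 4) :
    ∃ (δ₂ δ₃ : ℤ) (χ₂ χ₃ : ι), (δ₂ = 1 ∨ δ₂ = -1) ∧ (δ₃ = 1 ∨ δ₃ = -1) ∧ χ₂ ∈ B ∧ χ₃ ∈ B ∧
      χ₂ ≠ i₀ ∧ χ₃ ≠ i₀ ∧ χ₁ ≠ χ₂ ∧ χ₁ ≠ χ₃ ∧ χ₂ ≠ χ₃ ∧ (∀ j, e j ≠ χ₂ ∧ e j ≠ χ₃) ∧
      ∀ i ∈ B, v i = -(if i = i₀ then 1 else 0) - δ * (if i = χ₁ then 1 else 0) -
        δ₂ * (if i = χ₂ then 1 else 0) - δ₃ * (if i = χ₃ then 1 else 0) := by
  have hd := sum_decomp₂ B i₀ χ₁ e he hi₀ hχ₁ hne heB h1 h2 (fun i => v i * v i)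
  simp only [hve, hv0, hv1] at hd
  rw [hvv] at hd
  simp only [mul_zero, Finset.sum_const_zero, add_zero] at hd
  have hδ2 : -δ * -δ = 1 := by rcases hδ with rfl | rfl <;> norm_num
  rw [hδ2] at hd
  have hR : ∑ i ∈ ((B.erase i₀).erase χ₁) \ Finset.univ.image e, v i ^ 2 = 2 := by
    simp only [pow_two]
    omega
  obtain ⟨a, ha, b, hb, hab, ha2, hb2, hrest⟩ := entries_two _ v hR
  have hmem : ∀ i, i ∈ ((B.erase i₀).erase χ₁) \ Finset.univ.image e ↔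
      (i ∈ B ∧ i ≠ i₀ ∧ i ≠ χ₁ ∧ ∀ j, e j ≠ i) := by
    intro i
    simp only [Finset.mem_sdiff, Finset.mem_erase, Finset.mem_image, Finset.mem_univ, true_and, not_exists]
    tauto
  rw [hmem] at ha hb
  obtain ⟨haB, hai, ha1, hae⟩ := ha
  obtain ⟨hbB, hbi, hb1, hbe⟩ := hb
  refine ⟨-v a, -v b, a, b, ?_, ?_, haB, hbB, hai, hbi, ha1.symm, hb1.symm, hab, fun j => ⟨hae j, hbe j⟩, ?_⟩
  · rcases sq_one_cases ha2 with h | h <;> rw [h] <;> norm_num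
  · rcases sq_one_cases hb2 with h | h <;> rw [h] <;> norm_num
  · intro i hi
    by_cases h1' : i = i₀
    · subst h1'
      rw [if_pos rfl, if_neg hne.symm, if_neg hai.symm, if_neg hbi.symm, hv0]
      ring
    by_cases h2' : i = χ₁
    · subst h2'
      rw [if_neg h1', if_pos rfl, if_neg ha1.symm, if_neg hb1.symm, hv1]
      ring
    by_cases h3' : i = a
    · subst h3'
      rw [if_neg h1', if_neg h2', if_pos rfl, if_neg hab]
      ring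
    by_cases h4' : i = b
    · subst h4'
      rw [if_neg h1', if_neg h2', if_neg h3', if_pos rfl]
      ring
    rw [if_neg h1', if_neg h2', if_neg h3', if_neg h4']
    by_cases h5' : ∃ j, e j = i
    · obtain ⟨j, rfl⟩ := h5'
      rw [hve]
      ring
    · push Not at h5'
      rw [hrest i ((hmem i).2 ⟨hi, h1', h2', h5'⟩) h3' h4']
      ring

end

section Main

variable {ι J : Type*} [DecidableEq ι] [Fintype J] [DecidableEq J]

set_option maxHeartbeats 2000000 in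
/-- The case of at least three "rotation" characters. -/
theorem lattice_ge3 (B : Finset ι) (i₀ : ι) (hi₀ : i₀ ∈ B)
    (x : ι → ℤ) (hx : ∀ i ∈ B, 0 < x i) (hx0 : x i₀ = 1)
    (hJ : 3 ≤ Fintype.card J)
    (u : J → ι → ℤ) (v : ι → ℤ)
    (hu0 : ∀ j, u j i₀ = -1) (hv0 : v i₀ = -1)
    (huu : ∀ j k, ∑ i ∈ B, u j i * u k i = 2 + if j = k then 1 else 0)
    (hvv : ∑ i ∈ B, v i * v i = 4)
    (huv : ∀ j, ∑ i ∈ B, v i * u j i = 2)
    (hxu : ∀ j, ∑ i ∈ B, x i * u j i = 0)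
    (hxv : ∑ i ∈ B, x i * v i = 0) :
    ∃ (δ δ₂ δ₃ : ℤ) (χ₁ χ₂ χ₃ : ι) (e : J → ι),
      (δ = 1 ∨ δ = -1) ∧ (δ₂ = 1 ∨ δ₂ = -1) ∧ (δ₃ = 1 ∨ δ₃ = -1) ∧
      χ₁ ∈ B ∧ χ₂ ∈ B ∧ χ₃ ∈ B ∧ (∀ j, e j ∈ B) ∧ Function.Injective e ∧
      χ₁ ≠ i₀ ∧ χ₂ ≠ i₀ ∧ χ₃ ≠ i₀ ∧ χ₁ ≠ χ₂ ∧ χ₁ ≠ χ₃ ∧ χ₂ ≠ χ₃ ∧
      (∀ j, e j ≠ i₀ ∧ e j ≠ χ₁ ∧ e j ≠ χ₂ ∧ e j ≠ χ₃) ∧
      (∀ j, ∀ i ∈ B, u j i = -(if i = i₀ then 1 else 0) - δ * (if i = χ₁ then 1 else 0) + δ * (if i = e j then 1 else 0)) ∧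
      (∀ i ∈ B, v i = -(if i = i₀ then 1 else 0) - δ * (if i = χ₁ then 1 else 0) -
        δ₂ * (if i = χ₂ then 1 else 0) - δ₃ * (if i = χ₃ then 1 else 0)) := by
  classical
  obtain ⟨j₀, j₁, hj⟩ := Fintype.one_lt_card_iff.mp (by omega : 1 < Fintype.card J)
  obtain ⟨w, e, s, hs, he, heB, hf⟩ := FrobBlock.sunflower B (2 : ℤ) u x hx huu
    (fun j k => (hxu j).trans (hxu k).symm) j₀ j₁ hj.symm
  have hs2 : s * s = 1 := by rcases hs with rfl | rfl <;> norm_num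
  have hs0 : s ≠ 0 := by rcases hs with rfl | rfl <;> norm_num
  set W := ∑ i ∈ B, w i ^ 2 with hW
  have hnorm : ∀ j, W + 2 * s * w (e j) = 2 := by
    intro j
    have h1 := huu j j
    rw [if_pos rfl] at h1
    have h2 : ∑ i ∈ B, u j i * u j i = ∑ i ∈ B, (w i + s * (if i = e j then 1 else 0)) * (w i + s * (if i = e j then 1 else 0)) :=
      Finset.sum_congr rfl fun i hi => by rw [hf j i hi]
    rw [h2, FrobBlock.sum_sq_expand B w s (heB j) (heB j), if_pos rfl] at h1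
    nlinarith
  have hwe : ∀ j, w (e j) = w (e j₀) := by
    intro j
    have h1 := hnorm j
    have h2 := hnorm j₀
    have h3 : 2 * s * (w (e j) - w (e j₀)) = 0 := by linarith
    rcases mul_eq_zero.1 h3 with h4 | h4
    · exfalso
      rcases hs with rfl | rfl <;> omega
    · linarith
  have hne0 : ∀ j, e j ≠ i₀ := by
    intro j hj'
    obtain ⟨j', hj''⟩ : ∃ j', j' ≠ j := by
      by_cases h : j₀ = j
      · exact ⟨j₁, fun h2 => hj (h.trans h2.symm)⟩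
      · exact ⟨j₀, h⟩
    have h1 := hf j i₀ hi₀
    rw [if_pos hj'.symm, hu0] at h1
    have h2 := hf j' i₀ hi₀
    rw [if_neg (fun h3 => hj'' (he (h3.symm.trans hj'.symm))), hu0] at h2
    apply hs0
    linarith
  have hw0 : w i₀ = -1 := by
    have h2 := hf j₀ i₀ hi₀
    rw [if_neg (fun h3 => hne0 j₀ h3.symm), hu0] at h2
    linarith
  set d := - w (e j₀) with hd
  have hwe' : ∀ j, w (e j) = -d := fun j => by rw [hwe j, hd]; ring
  set r := (Fintype.card J : ℤ) with hr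
  have hr3 : 3 ≤ r := by rw [hr]; exact_mod_cast hJ
  set X' := (B.erase i₀) \ Finset.univ.image e with hX'
  have hdec := fun f => sum_decomp₁ B i₀ e he hi₀ heB hne0 f
  have hWd : W = 1 + r * d ^ 2 + ∑ i ∈ X', w i ^ 2 := by
    rw [hW, hdec, hw0]
    simp only [hwe']
    simp only [Finset.sum_const, Finset.card_univ, nsmul_eq_mul]
    rw [← hr]
    ring
  have hX0 : 0 ≤ ∑ i ∈ X', w i ^ 2 := Finset.sum_nonneg fun i _ => sq_nonneg _
  have hstar : ∑ i ∈ X', w i ^ 2 + r * d ^ 2 - 2 * s * d = 1 := by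
    have h1 := hnorm j₀
    rw [show w (e j₀) = -d by rw [hd]; ring, hWd] at h1
    linarith
  have hexp : ∀ (f : ι → ℤ) j, ∑ i ∈ B, f i * u j i = ∑ i ∈ B, f i * w i + s * f (e j) := by
    intro f j
    have h1 : ∑ i ∈ B, f i * u j i = ∑ i ∈ B, (f i * w i + s * (f i * (if i = e j then 1 else 0))) :=
      Finset.sum_congr rfl fun i hi => by rw [hf j i hi]; ring
    rw [h1, Finset.sum_add_distrib, ← Finset.mul_sum, sum_mul_ite B f (heB j)]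
  have hd0 : d = 0 := by
    by_contra hdne
    -- then `d = s` and `r = 3`
    have hd1 : 1 ≤ d ^ 2 := by
      have := sq_pos_of_ne_zero hdne
      omega
    have hrd : 3 * d ^ 2 ≤ r * d ^ 2 := by nlinarith
    have hkey : d = s ∧ r = 3 ∧ ∑ i ∈ X', w i ^ 2 = 0 := by
      rcases hs with hs1 | hs1
      · rw [hs1] at hstar ⊢
        have h1 : d ≤ 1 := by nlinarith
        have h2 : 0 ≤ d := by nlinarith
        have h3 : d = 1 := by omega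
        rw [h3] at hstar
        have h4 : r = 3 := by linarith
        refine ⟨h3, h4, ?_⟩
        rw [h4] at hstar
        linarith
      · rw [hs1] at hstar ⊢
        have h1 : -1 ≤ d := by nlinarith
        have h2 : d ≤ 0 := by nlinarith
        have h3 : d = -1 := by omega
        rw [h3] at hstar
        have h4 : r = 3 := by linarith
        refine ⟨h3, h4, ?_⟩
        rw [h4] at hstar
        linarith
    obtain ⟨hds, hr', hX⟩ := hkey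
    have hX1 : ∀ i ∈ X', w i = 0 := by
      intro i hi
      have h6 := (Finset.sum_eq_zero_iff_of_nonneg (fun i _ => sq_nonneg (w i))).1 hX i hi
      exact pow_eq_zero_iff (by norm_num) |>.1 h6
    set T := ∑ j, x (e j) with hT
    have hxw : ∑ i ∈ B, x i * w i = -1 - d * T := by
      rw [hdec (fun i => x i * w i), hw0, hx0]
      simp only [hwe']
      rw [Finset.sum_eq_zero (s := X') (fun i hi => by rw [hX1 i hi, mul_zero]), hT, ← Finset.sum_mul]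
      ring
    have h1 : ∀ j, -1 - d * T + s * x (e j) = 0 := by
      intro j
      have h2 := hxu j
      rw [hexp x j, hxw] at h2
      exact h2
    have h2 : ∑ j : J, (-1 - d * T + s * x (e j)) = 0 := Finset.sum_eq_zero fun j _ => h1 j
    rw [Finset.sum_add_distrib, ← Finset.mul_sum, ← hT, Finset.sum_const, Finset.card_univ, nsmul_eq_mul, ← hr, hr', hds] at h2
    have h3 : 2 * (s * T) = -3 := by nlinarith
    omega
  -- `d = 0`
  have hwe0 : ∀ j, w (e j) = 0 := fun j => by rw [hwe', hd0]; ring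
  have hX1 : ∑ i ∈ X', w i ^ 2 = 1 := by
    rw [hd0] at hstar
    linarith
  obtain ⟨χ₁, hχ₁, hχ₁2, hrest⟩ := entries_one _ w hX1
  have hmemX : ∀ i, i ∈ X' ↔ (i ∈ B ∧ i ≠ i₀ ∧ ∀ j, e j ≠ i) := by
    intro i
    simp only [hX', Finset.mem_sdiff, Finset.mem_erase, Finset.mem_image, Finset.mem_univ, true_and, not_exists]
    tauto
  have hχ₁' := (hmemX χ₁).1 hχ₁
  obtain ⟨hχ₁B, hχ₁i, hχ₁e⟩ := hχ₁'
  set δ := - w χ₁ with hδdef
  have hδ : δ = 1 ∨ δ = -1 := by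
    rcases sq_one_cases hχ₁2 with h | h <;> rw [hδdef, h] <;> norm_num
  have hwχ : w χ₁ = -δ := by rw [hδdef]; ring
  have hwform : ∀ i ∈ B, w i = -(if i = i₀ then 1 else 0) - δ * (if i = χ₁ then 1 else 0) := by
    intro i hi
    by_cases h1 : i = i₀
    · subst h1
      rw [if_pos rfl, if_neg hχ₁i.symm, hw0]
      ring
    by_cases h2 : i = χ₁
    · subst h2
      rw [if_neg h1, if_pos rfl, hwχ]
      ring
    rw [if_neg h1, if_neg h2]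
    by_cases h3 : ∃ j, e j = i
    · obtain ⟨j, rfl⟩ := h3
      rw [hwe0]
      ring
    · push Not at h3
      rw [hrest i ((hmemX i).2 ⟨hi, h1, h3⟩) h2]
      ring
  have hcomb : ∀ (f : ι → ℤ) j, ∑ i ∈ B, f i * u j i = -f i₀ - δ * f χ₁ + s * f (e j) := by
    intro f j
    rw [hexp f j]
    congr 1
    have h1 : ∑ i ∈ B, f i * w i = ∑ i ∈ B, (-(f i * (if i = i₀ then 1 else 0)) - δ * (f i * (if i = χ₁ then 1 else 0))) :=
      Finset.sum_congr rfl fun i hi => by rw [hwform i hi]; ring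
    rw [h1, Finset.sum_sub_distrib, Finset.sum_neg_distrib, ← Finset.mul_sum, sum_mul_ite B f hi₀, sum_mul_ite B f hχ₁B]
  have hxe : ∀ j, 0 < x (e j) := fun j => hx _ (heB j)
  have hx1 : 0 < x χ₁ := hx _ hχ₁B
  have hsδ : s = δ := by
    have h1 := hxu j₀
    rw [hcomb x j₀, hx0] at h1
    have h2 := hxe j₀
    rcases hs with rfl | rfl <;> rcases hδ with h3 | h3 <;> rw [h3] at h1 ⊢ <;> first | rfl | omega
  rw [← hsδ] at hcomb
  have hδ2 : δ * δ = 1 := by rcases hδ with h | h <;> rw [h] <;> norm_num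
  -- the character `v`
  have hv1 : ∀ j, v (e j) - v χ₁ = δ := by
    intro j
    have h1 := huv j
    rw [hcomb v j, hv0, hsδ] at h1
    have h2 : δ * (v (e j) - v χ₁) = 1 := by linarith
    calc v (e j) - v χ₁ = δ * δ * (v (e j) - v χ₁) := by rw [hδ2, one_mul]
      _ = δ * (δ * (v (e j) - v χ₁)) := by ring
      _ = δ := by rw [h2, mul_one]
  set c := v (e j₀) with hc
  have hvc : ∀ j, v (e j) = c := by
    intro j
    have h1 := hv1 j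
    have h2 := hv1 j₀
    rw [hc]
    linarith
  have hvχ : v χ₁ = c - δ := by
    have h1 := hv1 j₀
    rw [← hc] at h1
    linarith
  have hne1 : ∀ j, e j ≠ χ₁ := fun j h => hχ₁e j h
  have hdec2 := fun f => sum_decomp₂ B i₀ χ₁ e he hi₀ hχ₁B hχ₁i heB hne0 hne1 f
  set R := ((B.erase i₀).erase χ₁) \ Finset.univ.image e with hR
  have hvd : r * c ^ 2 + (c - δ) ^ 2 + ∑ i ∈ R, v i ^ 2 = 3 := by
    have h1 := hdec2 (fun i => v i * v i)
    rw [hvv] at h1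
    simp only [hvc, hv0, hvχ] at h1
    simp only [Finset.sum_const, Finset.card_univ, nsmul_eq_mul] at h1
    rw [← hr] at h1
    simp only [pow_two]
    linarith
  have hR0 : 0 ≤ ∑ i ∈ R, v i ^ 2 := Finset.sum_nonneg fun i _ => sq_nonneg _
  have hc0 : c = 0 := by
    by_contra hcne
    have hc1 : 1 ≤ c ^ 2 := by
      have := sq_pos_of_ne_zero hcne
      omega
    have hsq0 : 0 ≤ (c - δ) ^ 2 := sq_nonneg _
    have h3 : 3 * c ^ 2 ≤ r * c ^ 2 := by nlinarith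
    have h4 : c ^ 2 = 1 := by nlinarith
    have h5 : (c - δ) ^ 2 = 0 := by nlinarith
    have h6 : ∑ i ∈ R, v i ^ 2 = 0 := by nlinarith
    have h7 : c = δ := by
      have := pow_eq_zero_iff (by norm_num) |>.1 h5
      linarith
    have hR1 : ∀ i ∈ R, v i = 0 := by
      intro i hi
      have h8 := (Finset.sum_eq_zero_iff_of_nonneg (fun i _ => sq_nonneg (v i))).1 h6 i hi
      exact pow_eq_zero_iff (by norm_num) |>.1 h8
    have h8 := hdec2 (fun i => x i * v i)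
    rw [hxv, Finset.sum_eq_zero (s := R) (fun i hi => by rw [hR1 i hi, mul_zero])] at h8
    simp only [hvc, hv0, hvχ, hx0, h7] at h8
    simp only [sub_self, mul_zero, add_zero, ← Finset.sum_mul] at h8
    set T := ∑ j, x (e j) with hT
    have hT3 : r ≤ T := by
      have h9 : ∑ j : J, (1 : ℤ) ≤ ∑ j, x (e j) := Finset.sum_le_sum fun j _ => by have := hxe j; omega
      simpa [hr] using h9
    rcases hδ with h9 | h9 <;> rw [h9] at h8 <;> omega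
  have hv1' : v χ₁ = -δ := by rw [hvχ, hc0]; ring
  have hve0 : ∀ j, v (e j) = 0 := fun j => by rw [hvc, hc0]
  obtain ⟨δ₂, δ₃, χ₂, χ₃, hδ₂, hδ₃, h₂B, h₃B, h₂i, h₃i, h12, h13, h23, hee, hvf⟩ :=
    finish B i₀ χ₁ e he hi₀ hχ₁B hχ₁i heB hne0 hne1 v δ hδ hv0 hv1' hve0 hvv
  refine ⟨δ, δ₂, δ₃, χ₁, χ₂, χ₃, e, hδ, hδ₂, hδ₃, hχ₁B, h₂B, h₃B, heB, he, hχ₁i, h₂i, h₃i, h12, h13, h23,
    fun j => ⟨hne0 j, hne1 j, (hee j).1, (hee j).2⟩, ?_, hvf⟩
  intro j i hi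
  rw [hf j i hi, hwform i hi, hsδ]

/-- The case of one "rotation" character. -/
theorem lattice_one_aux (B : Finset ι) (i₀ : ι) (hi₀ : i₀ ∈ B)
    (hJ : Fintype.card J = 1)
    (u : J → ι → ℤ) (v : ι → ℤ) (hv0 : v i₀ = -1)
    (hvv : ∑ i ∈ B, v i * v i = 4) (δ : ℤ) (hδ : δ = 1 ∨ δ = -1) (χ₁ e₀ : ι) (h1B : χ₁ ∈ B) (heB : e₀ ∈ B)
    (h1i : χ₁ ≠ i₀) (hei : e₀ ≠ i₀) (he1 : e₀ ≠ χ₁)
    (hu : ∀ j, ∀ i ∈ B, u j i = -(if i = i₀ then 1 else 0) - δ * (if i = χ₁ then 1 else 0) + δ * (if i = e₀ then 1 else 0))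
    (hv1 : v χ₁ = -δ) (hve : v e₀ = 0) :
    ∃ (δ δ₂ δ₃ : ℤ) (χ₁ χ₂ χ₃ : ι) (e : J → ι),
      (δ = 1 ∨ δ = -1) ∧ (δ₂ = 1 ∨ δ₂ = -1) ∧ (δ₃ = 1 ∨ δ₃ = -1) ∧
      χ₁ ∈ B ∧ χ₂ ∈ B ∧ χ₃ ∈ B ∧ (∀ j, e j ∈ B) ∧ Function.Injective e ∧
      χ₁ ≠ i₀ ∧ χ₂ ≠ i₀ ∧ χ₃ ≠ i₀ ∧ χ₁ ≠ χ₂ ∧ χ₁ ≠ χ₃ ∧ χ₂ ≠ χ₃ ∧
      (∀ j, e j ≠ i₀ ∧ e j ≠ χ₁ ∧ e j ≠ χ₂ ∧ e j ≠ χ₃) ∧
      (∀ j, ∀ i ∈ B, u j i = -(if i = i₀ then 1 else 0) - δ * (if i = χ₁ then 1 else 0) + δ * (if i = e j then 1 else 0)) ∧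
      (∀ i ∈ B, v i = -(if i = i₀ then 1 else 0) - δ * (if i = χ₁ then 1 else 0) -
        δ₂ * (if i = χ₂ then 1 else 0) - δ₃ * (if i = χ₃ then 1 else 0)) := by
  have hinj : Function.Injective (fun _ : J => e₀) := by
    intro a b _
    obtain ⟨j₀, hj₀⟩ := Fintype.card_eq_one_iff.mp hJ
    rw [hj₀ a, hj₀ b]
  obtain ⟨δ₂, δ₃, χ₂, χ₃, hδ₂, hδ₃, h₂B, h₃B, h₂i, h₃i, h12, h13, h23, hee, hvf⟩ :=
    finish B i₀ χ₁ (fun _ : J => e₀) hinj hi₀ h1B h1i (fun _ => heB) (fun _ => hei) (fun _ => he1) v δ hδ hv0 hv1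
      (fun _ => hve) hvv
  exact ⟨δ, δ₂, δ₃, χ₁, χ₂, χ₃, fun _ => e₀, hδ, hδ₂, hδ₃, h1B, h₂B, h₃B, fun _ => heB, hinj, h1i, h₂i, h₃i, h12, h13, h23,
    fun j => ⟨hei, he1, (hee j).1, (hee j).2⟩, hu, hvf⟩

set_option maxHeartbeats 1000000 in
theorem lattice_one (B : Finset ι) (i₀ : ι) (hi₀ : i₀ ∈ B)
    (x : ι → ℤ) (hx : ∀ i ∈ B, 0 < x i) (hx0 : x i₀ = 1)
    (hJ : Fintype.card J = 1)
    (u : J → ι → ℤ) (v : ι → ℤ)
    (hu0 : ∀ j, u j i₀ = -1) (hv0 : v i₀ = -1)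
    (huu : ∀ j k, ∑ i ∈ B, u j i * u k i = 2 + if j = k then 1 else 0)
    (hvv : ∑ i ∈ B, v i * v i = 4)
    (huv : ∀ j, ∑ i ∈ B, v i * u j i = 2)
    (hxu : ∀ j, ∑ i ∈ B, x i * u j i = 0)
    (hxv : ∑ i ∈ B, x i * v i = 0) :
    ∃ (δ δ₂ δ₃ : ℤ) (χ₁ χ₂ χ₃ : ι) (e : J → ι),
      (δ = 1 ∨ δ = -1) ∧ (δ₂ = 1 ∨ δ₂ = -1) ∧ (δ₃ = 1 ∨ δ₃ = -1) ∧
      χ₁ ∈ B ∧ χ₂ ∈ B ∧ χ₃ ∈ B ∧ (∀ j, e j ∈ B) ∧ Function.Injective e ∧
      χ₁ ≠ i₀ ∧ χ₂ ≠ i₀ ∧ χ₃ ≠ i₀ ∧ χ₁ ≠ χ₂ ∧ χ₁ ≠ χ₃ ∧ χ₂ ≠ χ₃ ∧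
      (∀ j, e j ≠ i₀ ∧ e j ≠ χ₁ ∧ e j ≠ χ₂ ∧ e j ≠ χ₃) ∧
      (∀ j, ∀ i ∈ B, u j i = -(if i = i₀ then 1 else 0) - δ * (if i = χ₁ then 1 else 0) + δ * (if i = e j then 1 else 0)) ∧
      (∀ i ∈ B, v i = -(if i = i₀ then 1 else 0) - δ * (if i = χ₁ then 1 else 0) -
        δ₂ * (if i = χ₂ then 1 else 0) - δ₃ * (if i = χ₃ then 1 else 0)) := by
  classical
  obtain ⟨j₀, hj₀⟩ := Fintype.card_eq_one_iff.mp hJ
  set U := u j₀ with hU
  have hU3 : ∑ i ∈ B, U i ^ 2 = 3 := by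
    have h1 := huu j₀ j₀
    rw [if_pos rfl] at h1
    simp only [pow_two, hU]
    rw [h1]
    norm_num
  have hU2 : ∑ i ∈ B.erase i₀, U i ^ 2 = 2 := by
    have h1 := Finset.add_sum_erase B (fun i => U i ^ 2) hi₀
    simp only [hU, hu0] at h1 ⊢
    rw [← hU] at h1 ⊢
    linarith
  obtain ⟨a, ha, b, hb, hab, ha2, hb2, hrest⟩ := entries_two _ U hU2
  have haB := Finset.mem_of_mem_erase ha
  have hbB := Finset.mem_of_mem_erase hb
  have hai := Finset.ne_of_mem_erase ha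
  have hbi := Finset.ne_of_mem_erase hb
  have hUf : ∀ i ∈ B, U i = -(if i = i₀ then 1 else 0) + U a * (if i = a then 1 else 0) + U b * (if i = b then 1 else 0) := by
    intro i hi
    by_cases h1 : i = i₀
    · subst h1
      rw [if_pos rfl, if_neg hai.symm, if_neg hbi.symm, hU, hu0]
      ring
    by_cases h2 : i = a
    · subst h2
      rw [if_neg h1, if_pos rfl, if_neg hab]
      ring
    by_cases h3 : i = b
    · subst h3
      rw [if_neg h1, if_neg h2, if_pos rfl]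
      ring
    rw [if_neg h1, if_neg h2, if_neg h3, hrest i (Finset.mem_erase.2 ⟨h1, hi⟩) h2 h3]
    ring
  have hcomb : ∀ f : ι → ℤ, ∑ i ∈ B, f i * U i = -f i₀ + U a * f a + U b * f b := by
    intro f
    have h1 : ∑ i ∈ B, f i * U i = ∑ i ∈ B, (-(f i * (if i = i₀ then 1 else 0)) + U a * (f i * (if i = a then 1 else 0)) +
        U b * (f i * (if i = b then 1 else 0))) :=
      Finset.sum_congr rfl fun i hi => by rw [hUf i hi]; ring
    rw [h1, Finset.sum_add_distrib, Finset.sum_add_distrib, Finset.sum_neg_distrib, ← Finset.mul_sum, ← Finset.mul_sum,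
      sum_mul_ite B f hi₀, sum_mul_ite B f haB, sum_mul_ite B f hbB]
  have hxa := hx a haB
  have hxb := hx b hbB
  have hdeg := hxu j₀
  rw [← hU, hcomb x, hx0] at hdeg
  have hopp : U b = - U a := by
    rcases sq_one_cases ha2 with h1 | h1 <;> rcases sq_one_cases hb2 with h2 | h2 <;> rw [h1, h2] at hdeg ⊢ <;>
      first | omega | norm_num
  have hip := huv j₀
  rw [← hU, hcomb v, hv0, hopp] at hip
  have hUa : U a * U a = 1 := by nlinarith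
  have hdiff : v a - v b = U a := by
    have h1 : U a * (v a - v b) = 1 := by linarith
    calc v a - v b = U a * U a * (v a - v b) := by rw [hUa, one_mul]
      _ = U a * (U a * (v a - v b)) := by ring
      _ = U a := by rw [h1, mul_one]
  have hsum : v a * v a + v b * v b ≤ 3 := by
    have h1 := Finset.add_sum_erase B (fun i => v i * v i) hi₀
    have h2 := Finset.add_sum_erase (B.erase i₀) (fun i => v i * v i) ha
    have h3 := Finset.add_sum_erase ((B.erase i₀).erase a) (fun i => v i * v i)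
      (Finset.mem_erase.2 ⟨hab.symm, hb⟩)
    have h4 : 0 ≤ ∑ i ∈ ((B.erase i₀).erase a).erase b, v i * v i :=
      Finset.sum_nonneg fun i _ => mul_self_nonneg _
    rw [hv0, hvv] at h1
    linarith
  have hcases : v a = 0 ∨ v b = 0 := by
    rcases sq_one_cases ha2 with h1 | h1 <;> rw [h1] at hdiff
    · have h2 : v a = v b + 1 := by linarith
      rw [h2] at hsum ⊢
      have h3 : v b ≤ 0 := by nlinarith
      have h4 : -1 ≤ v b := by nlinarith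
      omega
    · have h2 : v b = v a + 1 := by linarith
      rw [h2] at hsum ⊢
      have h3 : v a ≤ 0 := by nlinarith
      have h4 : -1 ≤ v a := by nlinarith
      omega
  have hujU : ∀ j, u j = U := fun j => by rw [hj₀ j]
  rcases hcases with hva | hvb
  · -- `χ₁ = b`, `e = a`
    have hδ : U a = 1 ∨ U a = -1 := sq_one_cases ha2
    apply lattice_one_aux B i₀ hi₀ hJ u v hv0 hvv (U a) hδ b a hbB haB hbi hai hab
    · intro j i hi
      rw [hujU j, hUf i hi, hopp]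
      ring
    · have h1 : v b = - U a := by linarith
      exact h1
    · exact hva
  · have hδ : U b = 1 ∨ U b = -1 := sq_one_cases hb2
    apply lattice_one_aux B i₀ hi₀ hJ u v hv0 hvv (U b) hδ a b haB hbB hai hbi hab.symm
    · intro j i hi
      rw [hujU j, hUf i hi, hopp]
      ring
    · have h1 : v a = U a := by linarith
      rw [hopp, h1]
      ring
    · exact hvb

/-- **The lattice computation.** -/
theorem dih_lattice (B : Finset ι) (i₀ : ι) (hi₀ : i₀ ∈ B)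
    (x : ι → ℤ) (hx : ∀ i ∈ B, 0 < x i) (hx0 : x i₀ = 1)
    (hJ : Fintype.card J = 1 ∨ 3 ≤ Fintype.card J)
    (u : J → ι → ℤ) (v : ι → ℤ)
    (hu0 : ∀ j, u j i₀ = -1) (hv0 : v i₀ = -1)
    (huu : ∀ j k, ∑ i ∈ B, u j i * u k i = 2 + if j = k then 1 else 0)
    (hvv : ∑ i ∈ B, v i * v i = 4)
    (huv : ∀ j, ∑ i ∈ B, v i * u j i = 2)
    (hxu : ∀ j, ∑ i ∈ B, x i * u j i = 0)
    (hxv : ∑ i ∈ B, x i * v i = 0) :
    ∃ (δ δ₂ δ₃ : ℤ) (χ₁ χ₂ χ₃ : ι) (e : J → ι),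
      (δ = 1 ∨ δ = -1) ∧ (δ₂ = 1 ∨ δ₂ = -1) ∧ (δ₃ = 1 ∨ δ₃ = -1) ∧
      χ₁ ∈ B ∧ χ₂ ∈ B ∧ χ₃ ∈ B ∧ (∀ j, e j ∈ B) ∧ Function.Injective e ∧
      χ₁ ≠ i₀ ∧ χ₂ ≠ i₀ ∧ χ₃ ≠ i₀ ∧ χ₁ ≠ χ₂ ∧ χ₁ ≠ χ₃ ∧ χ₂ ≠ χ₃ ∧
      (∀ j, e j ≠ i₀ ∧ e j ≠ χ₁ ∧ e j ≠ χ₂ ∧ e j ≠ χ₃) ∧
      (∀ j, ∀ i ∈ B, u j i = -(if i = i₀ then 1 else 0) - δ * (if i = χ₁ then 1 else 0) + δ * (if i = e j then 1 else 0)) ∧
      (∀ i ∈ B, v i = -(if i = i₀ then 1 else 0) - δ * (if i = χ₁ then 1 else 0) -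
        δ₂ * (if i = χ₂ then 1 else 0) - δ₃ * (if i = χ₃ then 1 else 0)) := by
  rcases hJ with hJ | hJ
  · exact lattice_one B i₀ hi₀ x hx hx0 hJ u v hu0 hv0 huu hvv huv hxu hxv
  · exact lattice_ge3 B i₀ hi₀ x hx hx0 hJ u v hu0 hv0 huu hvv huv hxu hxv

end Main

end Cfsg.Agent.Lib.DihLattice
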