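import Mathlib
import Cfsg.Agent.Lib.DihBlock
import Cfsg.Agent.Lib.DihLattice

/-!
# The principal `2`-block of a group with dihedral Sylow `2`-subgroups
-/

set_option autoImplicit false
set_option linter.unusedSectionVars false
set_option linter.unusedVariables false
set_option linter.style.haveILetI false

namespace Cfsg.Agent.Lib.DihBlock

open Cfsg Subgroup
open Cfsg.Agent.Lib
open Cfsg.Agent.Lib.CharBasic
open Cfsg.Agent.Lib.DefectOne (cj cj_coe chi alpha alpha_one alpha_smul smul_ne_one NT classInner_alpha classInner_chi isIrr_chi)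
open scoped ComplexConjugate

universe u

section Hom

variable {G : Type u} [Group G] {σ : G}

/-- The generator. -/
def gen (σ : G) : ↥(zpowers σ) := ⟨σ, mem_zpowers σ⟩

theorem mem_zpowers_gen (x : ↥(zpowers σ)) : x ∈ zpowers (gen σ) := by
  obtain ⟨x, i, rfl⟩ := x
  exact ⟨i, Subtype.ext (by simp [gen])⟩

theorem hom_ext_gen {f g : ↥(zpowers σ) →* ℂˣ} (h : f (gen σ) = g (gen σ)) : f = g := by
  ext x
  obtain ⟨i, rfl⟩ := mem_zpowers_gen x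
  simp [map_zpow, h]

theorem exists_hom [Finite G] {ζ : ℂ} {q : ℕ} (hq : orderOf σ = q) (hq0 : q ≠ 0) (hζ : ζ ^ q = 1) :
    ∃ α : ↥(zpowers σ) →* ℂˣ, ((α (gen σ) : ℂˣ) : ℂ) = ζ := by
  have hu : IsUnit ζ := IsUnit.of_pow_eq_one hζ hq0
  obtain ⟨u, rfl⟩ := hu
  have hg : orderOf (gen σ) = q := by
    rw [← hq]
    exact Subgroup.orderOf_mk _ _
  have hdvd : orderOf u ∣ orderOf (gen σ) := by
    rw [hg]
    apply orderOf_dvd_of_pow_eq_one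
    apply Units.ext
    simpa using hζ
  exact ⟨monoidHomOfForallMemZpowers mem_zpowers_gen hdvd, by rw [monoidHomOfForallMemZpowers_apply_gen]⟩

end Hom

section Main

variable {G : Type u} [Group G] [Fintype G] {M : Ideal AlgInt} {P : Sylow 2 G} {σ : G} {k : ℕ} (H : DH P σ k)
include H

set_option quotPrecheck false in
local notation "𝔸" => ↥(zpowers σ)

set_option maxHeartbeats 4000000 in
/-- **The principal block.** -/
theorem DH.main (hM : IsPModular 2 M) {ζ : ℂ} (hζ : IsPrimitiveRoot ζ (2 ^ k)) (r : ℕ) (hr : r = 2 ^ (k - 1) - 1) :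
    ∃ (χ₁ χ₂ χ₃ : IrrCharacter G) (χ' : Fin r → IrrCharacter G) (δ₁ δ₂ δ₃ : ℤ),
      (δ₁ = 1 ∨ δ₁ = -1) ∧ (δ₂ = 1 ∨ δ₂ = -1) ∧ (δ₃ = 1 ∨ δ₃ = -1) ∧ Function.Injective χ' ∧
      χ₁ ≠ BlockNormal.irrOne G ∧ χ₂ ≠ BlockNormal.irrOne G ∧ χ₃ ≠ BlockNormal.irrOne G ∧ χ₁ ≠ χ₂ ∧ χ₁ ≠ χ₃ ∧ χ₂ ≠ χ₃ ∧
      (∀ j, χ' j ≠ BlockNormal.irrOne G ∧ χ' j ≠ χ₁ ∧ χ' j ≠ χ₂ ∧ χ' j ≠ χ₃) ∧
      (∀ χ : IrrCharacter G, χ ∈ principalBlock M G ↔
        (χ = BlockNormal.irrOne G ∨ χ = χ₁ ∨ χ = χ₂ ∨ χ = χ₃ ∨ ∃ j, χ = χ' j)) ∧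
      (∀ l : ℕ, 0 < l → l < 2 ^ k → (χ₁ : G → ℂ) (σ ^ l) = δ₁ ∧ (χ₂ : G → ℂ) (σ ^ l) = δ₂ * (-1) ^ (l + 1) ∧
        (χ₃ : G → ℂ) (σ ^ l) = δ₃ * (-1) ^ (l + 1) ∧ ∀ j : Fin r, (χ' j : G → ℂ) (σ ^ l) =
          δ₁ * (ζ ^ (((j : ℕ) + 1) * l) + (ζ ^ (((j : ℕ) + 1) * l))⁻¹)) ∧
      (∀ ρ : G, ¬ 2 ∣ orderOf ρ → 1 + δ₁ * (χ₁ : G → ℂ) ρ = -δ₂ * (χ₂ : G → ℂ) ρ - δ₃ * (χ₃ : G → ℂ) ρ ∧
        ∀ j, 1 + δ₁ * (χ₁ : G → ℂ) ρ = δ₁ * (χ' j : G → ℂ) ρ) := by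
  classical
  letI : Fintype 𝔸 := Fintype.ofFinite _
  haveI : Finite (𝔸 →* ℂˣ) := FrobBlock.finite_dual H.commA
  letI : Fintype (𝔸 →* ℂˣ) := Fintype.ofFinite _
  have hk2 := H.hk
  set h := 2 ^ (k - 1) with hh
  have hq2 : 2 * h = 2 ^ k := H.two_pow
  have hh2 : 2 ≤ h := by
    rw [hh]
    calc 2 = 2 ^ 1 := by norm_num
      _ ≤ 2 ^ (k - 1) := Nat.pow_le_pow_right (by norm_num) (by omega)
  have hq0 : 2 ^ k ≠ 0 := by positivity
  haveI : NeZero (2 ^ k) := ⟨hq0⟩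
  obtain ⟨α₀, hα₀⟩ := exists_hom H.ord hq0 hζ.pow_eq_one
  let ψ : ℕ → (𝔸 →* ℂˣ) := fun i => α₀ ^ i
  have hψs : ∀ i, ((ψ i (gen σ) : ℂˣ) : ℂ) = ζ ^ i := by
    intro i
    simp only [ψ, MonoidHom.pow_apply, Units.val_pow_eq_pow_val, hα₀]
  have hψinvs : ∀ i, (((ψ i)⁻¹ (gen σ) : ℂˣ) : ℂ) = (ζ ^ i)⁻¹ := by
    intro i
    rw [MonoidHom.inv_apply, Units.val_inv_eq_inv_val, hψs]
  have hgenpow : ∀ l : ℕ, (⟨σ ^ l, pow_mem (mem_zpowers σ) l⟩ : 𝔸) = gen σ ^ l := fun l => Subtype.ext (by simp [gen])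
  have hψval : ∀ i l : ℕ, ((ψ i ⟨σ ^ l, pow_mem (mem_zpowers σ) l⟩ : ℂˣ) : ℂ) = ζ ^ (i * l) := by
    intro i l
    rw [hgenpow, map_pow, Units.val_pow_eq_pow_val, hψs, pow_mul]
  have hψinvval : ∀ i l : ℕ, (((ψ i)⁻¹ ⟨σ ^ l, pow_mem (mem_zpowers σ) l⟩ : ℂˣ) : ℂ) = (ζ ^ (i * l))⁻¹ := by
    intro i l
    rw [MonoidHom.inv_apply, Units.val_inv_eq_inv_val, hψval]
  have hψinj : ∀ i i', i < 2 ^ k → i' < 2 ^ k → ψ i = ψ i' → i = i' := by
    intro i i' hi hi' he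
    apply hζ.pow_inj hi hi'
    rw [← hψs, ← hψs, he]
  have hψ1 : ∀ i, 0 < i → i < 2 ^ k → ψ i ≠ 1 := by
    intro i hi hi' he
    have h1 := hψs i
    rw [he] at h1
    simp only [MonoidHom.one_apply, Units.val_one] at h1
    exact hζ.pow_ne_one_of_pos_of_lt hi.ne' hi' h1.symm
  have hψinv : ∀ i i', 0 < i + i' → i + i' < 2 ^ k → ψ i ≠ (ψ i')⁻¹ := by
    intro i i' h1 h2 he
    have h3 := hψs i
    rw [he, hψinvs] at h3
    have h4 : ζ ^ (i + i') = 1 := by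
      rw [pow_add, ← h3, inv_mul_cancel₀]
      exact pow_ne_zero _ (hζ.ne_zero hq0)
    exact hζ.pow_ne_one_of_pos_of_lt h1.ne' h2 h4
  have hε : ψ h = (ψ h)⁻¹ := by
    apply hom_ext_gen
    apply Units.ext
    rw [hψinvs, hψs]
    have h1 : ζ ^ h * ζ ^ h = 1 := by
      rw [← pow_add, ← two_mul, hq2]
      exact hζ.pow_eq_one
    exact eq_inv_of_mul_eq_one_left h1
  have hζh : ζ ^ h = -1 := by
    have h1 : ζ ^ h * ζ ^ h = 1 := by
      rw [← pow_add, ← two_mul, hq2]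
      exact hζ.pow_eq_one
    have h2 : ζ ^ h ≠ 1 := hζ.pow_ne_one_of_pos_of_lt (by omega) (by omega)
    rcases mul_self_eq_one_iff.1 h1 with h3 | h3
    · exact absurd h3 h2
    · exact h3
  have hhq : h < 2 ^ k := by omega
  have hrh : r + 1 = h := by omega
  -- the dual group
  have hcases : ∀ ψ' : 𝔸 →* ℂˣ, ψ' ≠ 1 → ψ' = ψ h ∨ ∃ j : Fin r, ψ' = ψ ((j : ℕ) + 1) ∨ ψ' = (ψ ((j : ℕ) + 1))⁻¹ := by
    intro ψ' hψ'
    have h1 : ((ψ' (gen σ) : ℂˣ) : ℂ) ^ 2 ^ k = 1 := by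
      rw [← Units.val_pow_eq_pow_val, ← map_pow]
      have h2 : gen σ ^ 2 ^ k = 1 := by
        apply Subtype.ext
        simp only [gen, SubmonoidClass.mk_pow, OneMemClass.coe_one]
        rw [← H.ord, pow_orderOf_eq_one]
      rw [h2, map_one, Units.val_one]
    obtain ⟨i, hi, hie⟩ := hζ.eq_pow_of_pow_eq_one h1
    have hψ'i : ψ' = ψ i := by
      apply hom_ext_gen
      apply Units.ext
      rw [hψs, hie]
    have hi0 : i ≠ 0 := by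
      rintro rfl
      apply hψ'
      rw [hψ'i]
      apply hom_ext_gen
      apply Units.ext
      rw [hψs]
      simp
    rcases lt_trichotomy i h with hlt | heq | hgt
    · right
      refine ⟨⟨i - 1, by omega⟩, Or.inl ?_⟩
      rw [hψ'i]
      congr 1
      simp only
      omega
    · left
      rw [hψ'i, heq]
    · right
      refine ⟨⟨2 ^ k - i - 1, by omega⟩, Or.inr ?_⟩
      rw [hψ'i]
      apply hom_ext_gen
      apply Units.ext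
      rw [hψs, hψinvs]
      have h5 : (2 ^ k - i - 1 : ℕ) + 1 = 2 ^ k - i := by omega
      simp only [h5]
      apply eq_inv_of_mul_eq_one_left
      rw [← pow_add, show i + (2 ^ k - i) = 2 ^ k by omega]
      exact hζ.pow_eq_one
  -- integers
  choose bZ hbZ using fun (ψ' : 𝔸 →* ℂˣ) (χ : IrrCharacter G) => FrobBlock.exists_int_bb (P := zpowers σ) χ ψ'
  set B := SingConst.B₀ M G with hB
  have hinner : ∀ ψ₁ ψ₂ : 𝔸 →* ℂˣ, ψ₁ ≠ 1 → ψ₂ ≠ 1 →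
      ∑ χ ∈ B, bZ ψ₁ χ * bZ ψ₂ χ = 2 + (if ψ₂ = ψ₁ then 1 else 0) + (if ψ₂⁻¹ = ψ₁ then 1 else 0) := by
    intro ψ₁ ψ₂ h₁ h₂
    have h3 := H.sum_bb_mul hM h₁ h₂
    have h4 : ∑ χ ∈ B, FrobBlock.bb (χ : G → ℂ) ψ₁ * conj (FrobBlock.bb (χ : G → ℂ) ψ₂) =
        ((∑ χ ∈ B, bZ ψ₁ χ * bZ ψ₂ χ : ℤ) : ℂ) := by
      push_cast
      refine Finset.sum_congr rfl fun χ _ => ?_
      rw [hbZ, hbZ, map_intCast]
    rw [h4] at h3
    have h5 : ((∑ χ ∈ B, bZ ψ₁ χ * bZ ψ₂ χ : ℤ) : ℂ) =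
        ((2 + (if ψ₂ = ψ₁ then 1 else 0) + (if ψ₂⁻¹ = ψ₁ then 1 else 0) : ℤ) : ℂ) := by
      rw [h3]
      push_cast
      rfl
    exact_mod_cast h5
  have hone : ∀ χ : IrrCharacter G, (χ : G → ℂ) 1 = charDegree (χ : G → ℂ) := fun χ =>
    CharKernel.one_eq_charDegree (IsIrrCharacter.isCharacter χ.2)
  have hdeg : ∀ ψ' : 𝔸 →* ℂˣ, ∑ χ ∈ B, ((charDegree (χ : G → ℂ) : ℕ) : ℤ) * bZ ψ' χ = 0 := by
    intro ψ'
    have h1 := H.sum_bb_reg hM ψ' (g := 1) (by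
      rw [orderOf_one]
      norm_num)
    have h2 : ((∑ χ ∈ B, ((charDegree (χ : G → ℂ) : ℕ) : ℤ) * bZ ψ' χ : ℤ) : ℂ) = 0 := by
      rw [← h1]
      push_cast
      refine Finset.sum_congr rfl fun χ _ => ?_
      rw [hbZ, hone, Complex.conj_natCast]
      ring
    exact_mod_cast h2
  set irr1 := BlockNormal.irrOne G with hirr1
  haveI := BlockLocal.isPrime_of_isPModular hM
  have hone_mem : irr1 ∈ B := SingConst.mem_B₀.mpr (BlockNormal.irrOne_mem_principalBlock M)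
  have hone_deg : ((charDegree (irr1 : G → ℂ) : ℕ) : ℤ) = 1 := by
    have h1 := hone irr1
    have h2 : ((charDegree (irr1 : G → ℂ) : ℕ) : ℂ) = 1 := by
      rw [← h1]
      rfl
    exact_mod_cast h2
  have hbone : ∀ ψ' : 𝔸 →* ℂˣ, ψ' ≠ 1 → bZ ψ' irr1 = -1 := by
    intro ψ' hψ'
    have h1 := hbZ ψ' irr1
    rw [bb_irrOne hψ'] at h1
    have h2 : ((bZ ψ' irr1 : ℤ) : ℂ) = ((-1 : ℤ) : ℂ) := by
      rw [← h1]
      push_cast
      rfl
    exact_mod_cast h2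
  -- the characters `u` and `v`
  have hψj1 : ∀ j : Fin r, ψ ((j : ℕ) + 1) ≠ 1 := fun j => hψ1 _ (by omega) (by have := j.2; omega)
  have hψh1 : ψ h ≠ 1 := hψ1 _ (by omega) hhq
  have hψjinv1 : ∀ j : Fin r, (ψ ((j : ℕ) + 1))⁻¹ ≠ 1 := by
    intro j he
    apply hψj1 j
    apply hom_ext_gen
    apply Units.ext
    have h1 := hψinvs ((j : ℕ) + 1)
    rw [he] at h1
    simp only [MonoidHom.one_apply, Units.val_one] at h1 ⊢
    rw [hψs]
    exact (inv_eq_one.1 h1.symm)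
  have hJcard : Fintype.card (Fin r) = 1 ∨ 3 ≤ Fintype.card (Fin r) := by
    rw [Fintype.card_fin, hr]
    by_cases hk3 : k = 2
    · left
      subst hk3
      norm_num
    · right
      have h4 : 2 ^ 2 ≤ 2 ^ (k - 1) := Nat.pow_le_pow_right (by norm_num) (by omega)
      omega
  have huu : ∀ j l : Fin r, ∑ χ ∈ B, bZ (ψ ((j : ℕ) + 1)) χ * bZ (ψ ((l : ℕ) + 1)) χ = 2 + if j = l then 1 else 0 := by
    intro j l
    have h5 : ¬ ((ψ ((l : ℕ) + 1))⁻¹ = ψ ((j : ℕ) + 1)) := fun he => hψinv ((j : ℕ) + 1) ((l : ℕ) + 1) (by omega)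
      (by have := j.2; have := l.2; omega) he.symm
    rw [hinner _ _ (hψj1 j) (hψj1 l), if_neg h5, add_zero]
    congr 1
    by_cases he : j = l
    · rw [if_pos he, if_pos (by rw [he])]
    · rw [if_neg he, if_neg]
      intro h3
      apply he
      have h4 := hψinj _ _ (by have := l.2; omega) (by have := j.2; omega) h3
      apply Fin.ext
      omega
  have hvv : ∑ χ ∈ B, bZ (ψ h) χ * bZ (ψ h) χ = 4 := by
    rw [hinner _ _ hψh1 hψh1, if_pos rfl, if_pos hε.symm]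
    norm_num
  have huv : ∀ j : Fin r, ∑ χ ∈ B, bZ (ψ h) χ * bZ (ψ ((j : ℕ) + 1)) χ = 2 := by
    intro j
    have h5 : ¬ ((ψ ((j : ℕ) + 1))⁻¹ = ψ h) := fun h3 =>
      hψinv h ((j : ℕ) + 1) (by omega) (by have := j.2; omega) h3.symm
    have h6 : ¬ (ψ ((j : ℕ) + 1) = ψ h) := fun h3 => by
      have h4 := hψinj _ _ (by have := j.2; omega) hhq h3
      have := j.2
      omega
    rw [hinner _ _ hψh1 (hψj1 j), if_neg h5, if_neg h6, add_zero, add_zero]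
  obtain ⟨δ, δ₂, δ₃, χ₁, χ₂, χ₃, e, hδ, hδ₂, hδ₃, h₁B, h₂B, h₃B, heB, he, h₁i, h₂i, h₃i, h12, h13, h23, hee, hu, hv⟩ :=
    DihLattice.dih_lattice B irr1 hone_mem (fun χ : IrrCharacter G => ((charDegree (χ : G → ℂ) : ℕ) : ℤ))
      (fun χ _ => by exact_mod_cast CharKernel.charDegree_pos χ.2) hone_deg hJcard
      (fun (j : Fin r) χ => bZ (ψ ((j : ℕ) + 1)) χ) (bZ (ψ h)) (fun j => hbone _ (hψj1 j)) (hbone _ hψh1) huu hvv huv
      (fun j => hdeg _) (hdeg _)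
  -- consequences
  have hbbε : ∀ χ : IrrCharacter G, FrobBlock.bb (χ : G → ℂ) (ψ h) = (bZ (ψ h) χ : ℂ) := fun χ => hbZ _ χ
  have hbbj : ∀ (χ : IrrCharacter G) (j : Fin r), FrobBlock.bb (χ : G → ℂ) (ψ ((j : ℕ) + 1)) = (bZ (ψ ((j : ℕ) + 1)) χ : ℂ) :=
    fun χ j => hbZ _ χ
  have hbbj' : ∀ (χ : IrrCharacter G) (j : Fin r), FrobBlock.bb (χ : G → ℂ) (ψ ((j : ℕ) + 1))⁻¹ = (bZ (ψ ((j : ℕ) + 1)) χ : ℂ) :=
    fun χ j => by rw [H.bb_inv, hbZ]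
  have hb₁ : ∀ ψ' : 𝔸 →* ℂˣ, ψ' ≠ 1 → FrobBlock.bb (χ₁ : G → ℂ) ψ' = -(δ : ℂ) := by
    intro ψ' hψ'
    rcases hcases ψ' hψ' with rfl | ⟨j, rfl | rfl⟩
    · rw [hbbε, hv χ₁ h₁B, if_neg h₁i, if_pos rfl, if_neg h12, if_neg h13]
      push_cast
      ring
    · rw [hbbj, hu j χ₁ h₁B, if_neg h₁i, if_pos rfl, if_neg (hee j).2.1.symm]
      push_cast
      ring
    · rw [hbbj', hu j χ₁ h₁B, if_neg h₁i, if_pos rfl, if_neg (hee j).2.1.symm]
      push_cast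
      ring
  have hb₂ : ∀ ψ' : 𝔸 →* ℂˣ, ψ' ≠ ψ h → FrobBlock.bb (χ₂ : G → ℂ) ψ' = 0 := by
    intro ψ' hψ'
    by_cases h1 : ψ' = 1
    · rw [h1]
      exact H.bb_self_one χ₂
    rcases hcases ψ' h1 with rfl | ⟨j, rfl | rfl⟩
    · exact absurd rfl hψ'
    · rw [hbbj, hu j χ₂ h₂B, if_neg h₂i, if_neg h12.symm, if_neg (hee j).2.2.1.symm]
      simp
    · rw [hbbj', hu j χ₂ h₂B, if_neg h₂i, if_neg h12.symm, if_neg (hee j).2.2.1.symm]
      simp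
  have hb₃ : ∀ ψ' : 𝔸 →* ℂˣ, ψ' ≠ ψ h → FrobBlock.bb (χ₃ : G → ℂ) ψ' = 0 := by
    intro ψ' hψ'
    by_cases h1 : ψ' = 1
    · rw [h1]
      exact H.bb_self_one χ₃
    rcases hcases ψ' h1 with rfl | ⟨j, rfl | rfl⟩
    · exact absurd rfl hψ'
    · rw [hbbj, hu j χ₃ h₃B, if_neg h₃i, if_neg h13.symm, if_neg (hee j).2.2.2.symm]
      simp
    · rw [hbbj', hu j χ₃ h₃B, if_neg h₃i, if_neg h13.symm, if_neg (hee j).2.2.2.symm]
      simp
  have hb₂ε : FrobBlock.bb (χ₂ : G → ℂ) (ψ h) = -(δ₂ : ℂ) := by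
    rw [hbbε, hv χ₂ h₂B, if_neg h₂i, if_neg h12.symm, if_pos rfl, if_neg h23]
    push_cast
    ring
  have hb₃ε : FrobBlock.bb (χ₃ : G → ℂ) (ψ h) = -(δ₃ : ℂ) := by
    rw [hbbε, hv χ₃ h₃B, if_neg h₃i, if_neg h13.symm, if_neg h23.symm, if_pos rfl]
    push_cast
    ring
  have hbe : ∀ (j : Fin r) (ψ' : 𝔸 →* ℂˣ), ψ' ≠ ψ ((j : ℕ) + 1) → ψ' ≠ (ψ ((j : ℕ) + 1))⁻¹ →
      FrobBlock.bb (e j : G → ℂ) ψ' = 0 := by
    intro j ψ' h1 h2
    by_cases h0 : ψ' = 1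
    · rw [h0]
      exact H.bb_self_one (e j)
    rcases hcases ψ' h0 with rfl | ⟨l, rfl | rfl⟩
    · rw [hbbε, hv (e j) (heB j), if_neg (hee j).1, if_neg (hee j).2.1, if_neg (hee j).2.2.1, if_neg (hee j).2.2.2]
      simp
    · have hne : e j ≠ e l := fun h' => h1 (by rw [he h'])
      rw [hbbj, hu l (e j) (heB j), if_neg (hee j).1, if_neg (hee j).2.1, if_neg hne]
      simp
    · have hne : e j ≠ e l := fun h' => h2 (by rw [he h'])
      rw [hbbj', hu l (e j) (heB j), if_neg (hee j).1, if_neg (hee j).2.1, if_neg hne]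
      simp
  have hbe1 : ∀ j : Fin r, FrobBlock.bb (e j : G → ℂ) (ψ ((j : ℕ) + 1)) = (δ : ℂ) := by
    intro j
    rw [hbbj, hu j (e j) (heB j), if_neg (hee j).1, if_neg (hee j).2.1, if_pos rfl]
    push_cast
    ring
  have hbe2 : ∀ j : Fin r, FrobBlock.bb (e j : G → ℂ) (ψ ((j : ℕ) + 1))⁻¹ = (δ : ℂ) := by
    intro j
    rw [hbbj', hu j (e j) (heB j), if_neg (hee j).1, if_neg (hee j).2.1, if_pos rfl]
    push_cast
    ring
  -- values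
  have hyne : ∀ l : ℕ, 0 < l → l < 2 ^ k → (⟨σ ^ l, pow_mem (mem_zpowers σ) l⟩ : 𝔸) ≠ 1 := by
    intro l h1 h2 h3
    have h4 : σ ^ l = 1 := congrArg Subtype.val h3
    exact pow_ne_one_of_lt_orderOf h1.ne' (by rw [H.ord]; exact h2) h4
  have hsumψ : ∀ l : ℕ, 0 < l → l < 2 ^ k → ∑ ψ' : 𝔸 →* ℂˣ, ((ψ' ⟨σ ^ l, pow_mem (mem_zpowers σ) l⟩ : ℂˣ) : ℂ) = 0 := by
    intro l h1 h2
    rw [FrobBlock.sum_dual H.commA, if_neg (hyne l h1 h2)]
  -- exhaustion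
  have hex : ∀ χ ∈ B, χ = irr1 ∨ χ = χ₁ ∨ χ = χ₂ ∨ χ = χ₃ ∨ ∃ j, χ = e j := by
    intro χ hχ
    by_contra hn
    push Not at hn
    obtain ⟨n1, n2, n3, n4, n5⟩ := hn
    have hall : ∀ ψ' : 𝔸 →* ℂˣ, FrobBlock.bb (χ : G → ℂ) ψ' = 0 := by
      intro ψ'
      by_cases h0 : ψ' = 1
      · rw [h0]
        exact H.bb_self_one χ
      rcases hcases ψ' h0 with rfl | ⟨l, rfl | rfl⟩
      · rw [hbbε, hv χ hχ, if_neg n1, if_neg n2, if_neg n3, if_neg n4]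
        simp
      · rw [hbbj, hu l χ hχ, if_neg n1, if_neg n2, if_neg (n5 l)]
        simp
      · rw [hbbj', hu l χ hχ, if_neg n1, if_neg n2, if_neg (n5 l)]
        simp
    have h1 := H.value_formula χ (hyne h (by omega) hhq)
    rw [Finset.sum_eq_zero (fun ψ' _ => by rw [hall ψ', zero_mul])] at h1
    exact H.z_ne_zero hM (SingConst.mem_B₀.1 hχ) h1.symm
  have hval₂ : ∀ (χ : IrrCharacter G) (d : ℤ), (∀ ψ' : 𝔸 →* ℂˣ, ψ' ≠ ψ h → FrobBlock.bb (χ : G → ℂ) ψ' = 0) →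
      FrobBlock.bb (χ : G → ℂ) (ψ h) = -(d : ℂ) → ∀ l : ℕ, 0 < l → l < 2 ^ k → (χ : G → ℂ) (σ ^ l) = d * (-1) ^ (l + 1) := by
    intro χ d h0 h1 l hl hl'
    have h2 := H.value_formula χ (hyne l hl hl')
    rw [Finset.sum_eq_single (ψ h) (fun ψ' _ hne => by rw [h0 ψ' hne, zero_mul])
      (fun hn => absurd (Finset.mem_univ _) hn), h1, hψval, pow_mul, hζh] at h2
    change _ = (χ : G → ℂ) (σ ^ l) at h2
    rw [← h2, pow_succ]
    ring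
  -- regular elements
  have hregsum : ∀ (ρ : G), ¬ 2 ∣ orderOf ρ → ∀ ψ' : 𝔸 →* ℂˣ, ∑ χ ∈ B, (bZ ψ' χ : ℂ) * (χ : G → ℂ) ρ = 0 := by
    intro ρ hρ ψ'
    have h1 := H.sum_bb_reg hM ψ' hρ
    have h2 := congrArg conj h1
    rw [map_sum, map_zero] at h2
    rw [← h2]
    refine Finset.sum_congr rfl fun χ _ => ?_
    rw [hbZ, map_mul, Complex.conj_conj, map_intCast]
  have hirr1v : ∀ g : G, (irr1 : G → ℂ) g = 1 := fun g => rfl
  refine ⟨χ₁, χ₂, χ₃, e, δ, δ₂, δ₃, hδ, hδ₂, hδ₃, he, h₁i, h₂i, h₃i, h12, h13, h23, hee, ?_, ?_, ?_⟩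
  · intro χ
    rw [← SingConst.mem_B₀]
    constructor
    · exact hex χ
    · rintro (rfl | rfl | rfl | rfl | ⟨j, rfl⟩)
      · exact hone_mem
      · exact h₁B
      · exact h₂B
      · exact h₃B
      · exact heB j
  · intro l hl hl'
    refine ⟨?_, hval₂ χ₂ δ₂ hb₂ hb₂ε l hl hl', hval₂ χ₃ δ₃ hb₃ hb₃ε l hl hl', ?_⟩
    · have h2 := H.value_formula χ₁ (hyne l hl hl')
      have h3 : ∀ ψ' : 𝔸 →* ℂˣ, FrobBlock.bb (χ₁ : G → ℂ) ψ' * ((ψ' ⟨σ ^ l, pow_mem (mem_zpowers σ) l⟩ : ℂˣ) : ℂ) =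
          -(δ : ℂ) * ((ψ' ⟨σ ^ l, pow_mem (mem_zpowers σ) l⟩ : ℂˣ) : ℂ) + (if ψ' = 1 then (δ : ℂ) else 0) := by
        intro ψ'
        by_cases h0 : ψ' = 1
        · rw [h0, H.bb_self_one χ₁, if_pos rfl]
          simp
        · rw [hb₁ ψ' h0, if_neg h0, add_zero]
      rw [Finset.sum_congr rfl (fun ψ' _ => h3 ψ'), Finset.sum_add_distrib, ← Finset.mul_sum, hsumψ l hl hl',
        Finset.sum_ite_eq' Finset.univ (1 : 𝔸 →* ℂˣ), if_pos (Finset.mem_univ _), mul_zero, zero_add] at h2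
      exact h2.symm
    · intro j
      have h2 := H.value_formula (e j) (hyne l hl hl')
      have hne : ψ ((j : ℕ) + 1) ≠ (ψ ((j : ℕ) + 1))⁻¹ :=
        hψinv _ _ (by omega) (by have := j.2; omega)
      rw [Fintype.sum_eq_add (ψ ((j : ℕ) + 1)) (ψ ((j : ℕ) + 1))⁻¹ hne
        (fun ψ' h0 => by rw [hbe j ψ' h0.1 h0.2, zero_mul]), hbe1, hbe2, hψval, hψinvval] at h2
      change _ = (e j : G → ℂ) (σ ^ l) at h2
      rw [← h2]
      ring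
  · intro ρ hρ
    constructor
    · have h1 := hregsum ρ hρ (ψ h)
      have h2 : ∀ χ ∈ B, (bZ (ψ h) χ : ℂ) * (χ : G → ℂ) ρ =
          -(if χ = irr1 then (χ : G → ℂ) ρ else 0) - δ * (if χ = χ₁ then (χ : G → ℂ) ρ else 0) -
            δ₂ * (if χ = χ₂ then (χ : G → ℂ) ρ else 0) - δ₃ * (if χ = χ₃ then (χ : G → ℂ) ρ else 0) := by
        intro χ hχ
        have t : ∀ (c : Prop) [Decidable c], (if c then (χ : G → ℂ) ρ else 0) = (if c then (1 : ℂ) else 0) * (χ : G → ℂ) ρ := by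
          intro c _
          split_ifs <;> simp
        rw [hv χ hχ, t (χ = irr1), t (χ = χ₁), t (χ = χ₂), t (χ = χ₃)]
        push_cast
        ring
      rw [Finset.sum_congr rfl h2, Finset.sum_sub_distrib, Finset.sum_sub_distrib, Finset.sum_sub_distrib,
        Finset.sum_neg_distrib, ← Finset.mul_sum, ← Finset.mul_sum, ← Finset.mul_sum,
        Finset.sum_ite_eq' B irr1, Finset.sum_ite_eq' B χ₁, Finset.sum_ite_eq' B χ₂, Finset.sum_ite_eq' B χ₃,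
        if_pos hone_mem, if_pos h₁B, if_pos h₂B, if_pos h₃B, hirr1v] at h1
      linear_combination -h1
    · intro j
      have h1 := hregsum ρ hρ (ψ ((j : ℕ) + 1))
      have h2 : ∀ χ ∈ B, (bZ (ψ ((j : ℕ) + 1)) χ : ℂ) * (χ : G → ℂ) ρ =
          -(if χ = irr1 then (χ : G → ℂ) ρ else 0) - δ * (if χ = χ₁ then (χ : G → ℂ) ρ else 0) +
            δ * (if χ = e j then (χ : G → ℂ) ρ else 0) := by
        intro χ hχ
        have t : ∀ (c : Prop) [Decidable c], (if c then (χ : G → ℂ) ρ else 0) = (if c then (1 : ℂ) else 0) * (χ : G → ℂ) ρ := by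
          intro c _
          split_ifs <;> simp
        rw [hu j χ hχ, t (χ = irr1), t (χ = χ₁), t (χ = e j)]
        push_cast
        ring
      rw [Finset.sum_congr rfl h2, Finset.sum_add_distrib, Finset.sum_sub_distrib,
        Finset.sum_neg_distrib, ← Finset.mul_sum, ← Finset.mul_sum,
        Finset.sum_ite_eq' B irr1, Finset.sum_ite_eq' B χ₁, Finset.sum_ite_eq' B (e j),
        if_pos hone_mem, if_pos h₁B, if_pos (heB j), hirr1v] at h1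
      linear_combination -h1

end Main

section OfIso

variable {G : Type u} [Group G] [Finite G]

/-- A Sylow subgroup isomorphic to a dihedral group. -/
theorem DH.of_iso (P : Sylow 2 G) (k : ℕ) (hk : 2 ≤ k) (e : (P : Subgroup G) ≃* DihedralGroup (2 ^ k)) (σ : G)
    (hσ : σ ∈ (P : Subgroup G)) (hσo : orderOf σ = 2 ^ k) : DH P σ k := by
  open DihSylow in
  have hrotQ : ∀ j, rot e j ∈ zpowers (rot e 1) := by
    intro j
    obtain ⟨i, hi⟩ := ZMod.intCast_surjective j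
    exact ⟨i, by
      change rot e 1 ^ i = rot e j
      rw [rot_zpow, hi]⟩
  have hσrot : ∃ j, σ = rot e j := by
    rcases mem_cases e hσ with h | ⟨i, hi⟩
    · exact h
    · exfalso
      have h1 := orderOf_rfl e i
      rw [← hi, hσo] at h1
      have h2 : 2 ^ 2 ≤ 2 ^ k := Nat.pow_le_pow_right (by norm_num) hk
      omega
  have hle : zpowers σ ≤ zpowers (rot e 1) := by
    rw [zpowers_le]
    obtain ⟨j, rfl⟩ := hσrot
    exact hrotQ j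
  have heq : zpowers σ = zpowers (rot e 1) := by
    apply Subgroup.eq_of_le_of_card_ge hle
    rw [Nat.card_zpowers, Nat.card_zpowers, hσo, orderOf_rot_one]
  refine ⟨hσ, hσo, hk, ?_, ?_, ?_⟩
  · intro x hx hxA
    rcases mem_cases e hx with ⟨j, rfl⟩ | ⟨i, rfl⟩
    · exfalso
      apply hxA
      rw [heq]
      exact hrotQ j
    · refine ⟨rfl_mul_self e i, fun a ha => ?_⟩
      rw [heq] at ha
      obtain ⟨j, rfl⟩ := mem_Q_iff e ha
      rw [rfl_conj_rot, rot_inv]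
  · intro x hx y hy hxA hyA
    rw [heq]
    rcases mem_cases e hx with ⟨j, rfl⟩ | ⟨i, rfl⟩
    · exfalso
      apply hxA
      rw [heq]
      exact hrotQ j
    · rcases mem_cases e hy with ⟨j, rfl⟩ | ⟨i', rfl⟩
      · exfalso
        apply hyA
        rw [heq]
        exact hrotQ j
      · rw [rfl_mul_rfl]
        exact hrotQ _
  · rw [card_eq e]
    ring

end OfIso

end Cfsg.Agent.Lib.DihBlock
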