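import Mathlib
import Cfsg.Agent.Lib.DihBlockMain

/-!
# An order formula for groups with dihedral Sylow `2`-subgroups and one class of involutions
-/

set_option autoImplicit false
set_option linter.unusedSectionVars false
set_option linter.unusedVariables false
set_option linter.style.haveILetI false

namespace Cfsg.Agent.Lib.DihBlock

open Cfsg Subgroup
open Cfsg.Agent.Lib
open Cfsg.Agent.Lib.CharBasic
open scoped ComplexConjugate

universe u

section Retraction

variable {G : Type u} [Group G] [Finite G] {P : Sylow 2 G} {σ : G} {k : ℕ} (H : DH P σ k)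
include H

theorem DH.exists_retraction : ∃ π : ↥(centralizer ({H.z} : Set G)) →* ↥(P : Subgroup G),
    (∀ p : ↥(P : Subgroup G), π ⟨p, H.le_centralizer_z p.2⟩ = p) ∧
    (∀ h, π h = 1 ↔ ¬ 2 ∣ orderOf h) := by
  classical
  obtain ⟨N, hNn, m, hN, hQ⟩ := H.exists_complement H.z_mem H.z_ne_one
  haveI := hNn
  have hm := H.index_z hN hQ
  subst hm
  let φ : ↥(P : Subgroup G) →* ↥(centralizer ({H.z} : Set G)) ⧸ N :=
    (QuotientGroup.mk' N).comp (Subgroup.inclusion H.le_centralizer_z)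
  have hoddN : ∀ h ∈ N, ¬ 2 ∣ orderOf h := by
    intro h hh h2
    apply hN
    have h3 : orderOf h ∣ Nat.card N := by
      have := Subgroup.orderOf_dvd_natCard N hh
      exact this
    exact h2.trans h3
  have hPpow : ∀ p : ↥(P : Subgroup G), ∃ e : ℕ, orderOf p = 2 ^ e := fun p =>
    (IsPGroup.iff_orderOf.mp P.isPGroup') p
  have hinj : Function.Injective φ := by
    rw [injective_iff_map_eq_one]
    intro a ha
    have h1 : Subgroup.inclusion H.le_centralizer_z a ∈ N := (QuotientGroup.eq_one_iff _).1 ha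
    have h2 := hoddN _ h1
    have h3 : orderOf (Subgroup.inclusion H.le_centralizer_z a) = orderOf a := by
      apply orderOf_injective _ (Subgroup.inclusion_injective H.le_centralizer_z)
    rw [h3] at h2
    obtain ⟨e, he⟩ := hPpow a
    rcases e with _ | e
    · rw [pow_zero] at he
      exact orderOf_eq_one_iff.mp he
    · exfalso
      apply h2
      rw [he]
      exact dvd_pow_self 2 (Nat.succ_ne_zero e)
  have hcard : Nat.card ↥(P : Subgroup G) = Nat.card (↥(centralizer ({H.z} : Set G)) ⧸ N) := by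
    rw [H.card, ← hQ]
    rfl
  have hbij : Function.Bijective φ := (Nat.bijective_iff_injective_and_card φ).2 ⟨hinj, hcard⟩
  let e := MulEquiv.ofBijective φ hbij
  refine ⟨e.symm.toMonoidHom.comp (QuotientGroup.mk' N), ?_, ?_⟩
  · intro p
    change e.symm (φ p) = p
    exact e.symm_apply_apply p
  · intro h
    change e.symm ((h : ↥(centralizer ({H.z} : Set G)) ⧸ N)) = 1 ↔ _
    rw [MulEquiv.map_eq_one_iff, QuotientGroup.eq_one_iff]
    constructor
    · exact hoddN h
    · intro ho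
      -- the image in the quotient has odd order and `2`-power order
      have h1 : (e.symm (h : ↥(centralizer ({H.z} : Set G)) ⧸ N)) ^ orderOf h = 1 := by
        rw [← map_pow, ← QuotientGroup.mk_pow, pow_orderOf_eq_one]
        simp
      obtain ⟨a, ha⟩ := hPpow (e.symm (h : ↥(centralizer ({H.z} : Set G)) ⧸ N))
      have h2 := orderOf_dvd_of_pow_eq_one h1
      have h3 : e.symm (h : ↥(centralizer ({H.z} : Set G)) ⧸ N) = 1 := by
        rcases a with _ | a
        · rw [pow_zero] at ha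
          exact orderOf_eq_one_iff.mp ha
        · exfalso
          apply ho
          rw [ha] at h2
          exact (dvd_pow_self 2 (Nat.succ_ne_zero a)).trans h2
      have h4 := (MulEquiv.map_eq_one_iff e.symm).1 h3
      exact (QuotientGroup.eq_one_iff _).1 h4

/-- The retraction, as a function on `G`. -/
noncomputable def DH.piG (H : DH P σ k) (g : G) : G := by
  classical
  exact if hg : g ∈ centralizer ({H.z} : Set G) then ((Classical.choose H.exists_retraction ⟨g, hg⟩ : ↥(P : Subgroup G)) : G) else 1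

theorem DH.piG_of_mem {g : G} (hg : g ∈ centralizer ({H.z} : Set G)) :
    H.piG g = ((Classical.choose H.exists_retraction ⟨g, hg⟩ : ↥(P : Subgroup G)) : G) := by
  unfold DH.piG
  rw [dif_pos hg]

theorem DH.piG_mem (g : G) : H.piG g ∈ (P : Subgroup G) := by
  unfold DH.piG
  split_ifs with hg
  · exact (Classical.choose H.exists_retraction ⟨g, hg⟩ : ↥(P : Subgroup G)).2
  · exact one_mem _

theorem DH.piG_mul {g g' : G} (hg : g ∈ centralizer ({H.z} : Set G)) (hg' : g' ∈ centralizer ({H.z} : Set G)) :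
    H.piG (g * g') = H.piG g * H.piG g' := by
  rw [H.piG_of_mem hg, H.piG_of_mem hg', H.piG_of_mem (mul_mem hg hg')]
  have : (⟨g * g', mul_mem hg hg'⟩ : ↥(centralizer ({H.z} : Set G))) = ⟨g, hg⟩ * ⟨g', hg'⟩ := rfl
  rw [this, map_mul]
  rfl

theorem DH.piG_self {p : G} (hp : p ∈ (P : Subgroup G)) : H.piG p = p := by
  rw [H.piG_of_mem (H.le_centralizer_z hp)]
  have h1 := (Classical.choose_spec H.exists_retraction).1 ⟨p, hp⟩
  exact congrArg Subtype.val h1

theorem DH.piG_eq_one_iff {g : G} (hg : g ∈ centralizer ({H.z} : Set G)) : H.piG g = 1 ↔ ¬ 2 ∣ orderOf g := by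
  rw [H.piG_of_mem hg]
  have h1 := (Classical.choose_spec H.exists_retraction).2 ⟨g, hg⟩
  have h2 : orderOf (⟨g, hg⟩ : ↥(centralizer ({H.z} : Set G))) = orderOf g := Subgroup.orderOf_mk _ _
  rw [h2] at h1
  rw [← h1]
  exact OneMemClass.coe_eq_one

theorem DH.piG_one : H.piG 1 = 1 := H.piG_self (one_mem _)

theorem DH.piG_inv {g : G} (hg : g ∈ centralizer ({H.z} : Set G)) : H.piG g⁻¹ = (H.piG g)⁻¹ := by
  have h1 := H.piG_mul (inv_mem hg) hg
  rw [inv_mul_cancel, H.piG_one] at h1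
  exact eq_inv_of_mul_eq_one_left h1.symm

theorem DH.piG_conj {x g : G} (hx : x ∈ centralizer ({H.z} : Set G)) (hg : g ∈ centralizer ({H.z} : Set G)) :
    H.piG (x * g * x⁻¹) = H.piG x * H.piG g * (H.piG x)⁻¹ := by
  rw [H.piG_mul (mul_mem hx hg) (inv_mem hx), H.piG_mul hx hg, H.piG_inv hx]

theorem DH.piG_pow {g : G} (hg : g ∈ centralizer ({H.z} : Set G)) (n : ℕ) : H.piG (g ^ n) = (H.piG g) ^ n := by
  induction n with
  | zero => simp [H.piG_one]
  | succ n ih =>
    rw [pow_succ, pow_succ, H.piG_mul (pow_mem hg n) hg, ih]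

theorem DH.piG_mem_H (g : G) : H.piG g ∈ centralizer ({H.z} : Set G) := H.le_centralizer_z (H.piG_mem g)

/-- A `2`-element of `C(z)` is conjugate in `C(z)` to its image. -/
theorem DH.exists_conj_pi {u : G} (hu : u ∈ centralizer ({H.z} : Set G)) (h2 : ∃ e : ℕ, orderOf u = 2 ^ e) :
    ∃ x ∈ centralizer ({H.z} : Set G), x * u * x⁻¹ = H.piG u := by
  classical
  haveI : Fact (Nat.Prime 2) := ⟨Nat.prime_two⟩
  obtain ⟨e, he⟩ := h2
  have hT : IsPGroup 2 (zpowers u) := by
    apply IsPGroup.of_card (n := e)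
    rw [Nat.card_zpowers, he]
  have hle : zpowers u ≤ centralizer ({H.z} : Set G) := by
    rw [zpowers_le]
    exact hu
  obtain ⟨c, hc, hcT⟩ := SylowConjLemmas.exists_conj_mem_of_le P _ H.le_centralizer_z _ hT hle
  have h1 := hcT u (mem_zpowers u)
  have h3 := H.piG_conj hc hu
  rw [H.piG_self h1] at h3
  refine ⟨(H.piG c)⁻¹ * c, mul_mem (inv_mem (H.piG_mem_H c)) hc, ?_⟩
  calc (H.piG c)⁻¹ * c * u * ((H.piG c)⁻¹ * c)⁻¹ = (H.piG c)⁻¹ * (c * u * c⁻¹) * H.piG c := by group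
    _ = (H.piG c)⁻¹ * (H.piG c * H.piG u * (H.piG c)⁻¹) * H.piG c := by rw [h3]
    _ = H.piG u := by group

theorem DH.z_mem_H : H.z ∈ centralizer ({H.z} : Set G) := by
  rw [mem_centralizer_singleton_iff]

theorem DH.z_mem_P : H.z ∈ (P : Subgroup G) := H.le H.z_mem

/-- If the image of `h` is a non-trivial rotation, then `z` is a power of `h`. -/
theorem DH.z_mem_of_pi {h : G} (hh : h ∈ centralizer ({H.z} : Set G)) (hA : H.piG h ∈ zpowers σ) (h1 : H.piG h ≠ 1) :
    H.z ∈ zpowers h := by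
  classical
  obtain ⟨a, ha⟩ := (mem_powers_iff_mem_zpowers).2 (H.z_mem_zpowers hA h1)
  have ha' : (H.piG h) ^ a = H.z := ha
  set h₁ := h ^ a with hh₁
  have hh₁H : h₁ ∈ centralizer ({H.z} : Set G) := pow_mem hh a
  have hp : H.piG h₁ = H.z := by rw [hh₁, H.piG_pow hh, ha']
  set v := H.z * h₁ with hv
  have hvH : v ∈ centralizer ({H.z} : Set G) := mul_mem H.z_mem_H hh₁H
  have hpv : H.piG v = 1 := by
    rw [hv, H.piG_mul H.z_mem_H hh₁H, hp, H.piG_self H.z_mem_P, H.z_mul_self]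
  have hvo := (H.piG_eq_one_iff hvH).1 hpv
  have hcomm : Commute H.z v := by
    have h2 : H.z * h₁ = h₁ * H.z := (mem_centralizer_singleton_iff.1 hh₁H).symm
    change H.z * v = v * H.z
    rw [hv, mul_assoc, ← h2]
  have hh₁eq : h₁ = H.z * v := by
    rw [hv, ← mul_assoc, H.z_mul_self, one_mul]
  have h3 : h₁ ^ orderOf v = H.z := by
    rw [hh₁eq, hcomm.mul_pow, pow_orderOf_eq_one, mul_one]
    have hodd : Odd (orderOf v) := by
      rwa [← Nat.not_even_iff_odd, even_iff_two_dvd]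
    obtain ⟨c, hc⟩ := hodd
    rw [hc, pow_succ, pow_mul, pow_two, H.z_mul_self, one_pow, one_mul]
  rw [← h3, hh₁, ← pow_mul]
  exact pow_mem (mem_zpowers h) _

end Retraction

section Sum

variable {G : Type u} [Group G] [Fintype G]

open Classical in
/-- The involutions. -/
noncomputable def invG (G : Type u) [Group G] [Fintype G] : Finset G := Finset.univ.filter (fun w => w * w = 1 ∧ w ≠ 1)

theorem mem_invG {w : G} : w ∈ invG G ↔ w * w = 1 ∧ w ≠ 1 := by
  classical
  simp [invG]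

theorem two_dvd_of_invol {w : G} (h2 : w * w = 1) (h1 : w ≠ 1) : 2 ∣ orderOf w := by
  have : orderOf w = 2 := by
    haveI : Fact (Nat.Prime 2) := ⟨Nat.prime_two⟩
    apply orderOf_eq_prime
    · rw [pow_two, h2]
    · exact h1
  rw [this]

theorem mem_zpowers_of_invol {a b : G} (ha : a * a = 1) (hb : b ∈ zpowers a) : b = 1 ∨ b = a := by
  obtain ⟨i, rfl⟩ := (mem_powers_iff_mem_zpowers).2 hb
  change a ^ i = 1 ∨ a ^ i = a
  rcases Nat.even_or_odd i with ⟨j, rfl⟩ | ⟨j, rfl⟩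
  · left
    rw [← two_mul, pow_mul, pow_two, ha, one_pow]
  · right
    rw [pow_succ, pow_mul, pow_two, ha, one_pow, one_mul]

theorem mem_zpowers_conj {a b : G} (c : G) (h : a ∈ zpowers b) : c * a * c⁻¹ ∈ zpowers (c * b * c⁻¹) := by
  obtain ⟨i, rfl⟩ := h
  exact ⟨i, by simp [conj_zpow]⟩

theorem sum_range_two_mul (F : ℕ → ℂ) (h : ℕ) :
    ∑ l ∈ Finset.range (2 * h), F l = ∑ i ∈ Finset.range h, (F (2 * i) + F (2 * i + 1)) := by
  induction h with
  | zero => simp
  | succ h ih =>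
    rw [show 2 * (h + 1) = 2 * h + 1 + 1 by ring, Finset.sum_range_succ, Finset.sum_range_succ, ih,
      Finset.sum_range_succ]
    ring

variable {P : Sylow 2 G} {σ : G} {k : ℕ} (H : DH P σ k)
include H

open Classical in
/-- The involutions of `C(z)` other than `z`. -/
noncomputable def DH.inv' (H : DH P σ k) : Finset G :=
  Finset.univ.filter (fun w : G => w * w = 1 ∧ w ≠ 1 ∧ w * H.z = H.z * w ∧ w ≠ H.z)

theorem DH.mem_inv' {w : G} : w ∈ H.inv' ↔ w * w = 1 ∧ w ≠ 1 ∧ w * H.z = H.z * w ∧ w ≠ H.z := by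
  classical
  simp [DH.inv']

theorem DH.pi_refl {w : G} (hw : w ∈ H.inv') : H.piG w ∉ zpowers σ := by
  obtain ⟨h2, h1, hc, hz⟩ := H.mem_inv'.1 hw
  have hwH : w ∈ centralizer ({H.z} : Set G) := mem_centralizer_singleton_iff.2 hc
  intro hA
  have ht2 : H.piG w * H.piG w = 1 := by
    rw [← H.piG_mul hwH hwH, h2, H.piG_one]
  have ht1 : H.piG w ≠ 1 := by
    intro h
    exact (H.piG_eq_one_iff hwH).1 h (two_dvd_of_invol h2 h1)
  have htz := H.eq_of_sq hA ht1 ht2
  have h3 : H.piG (H.z * w) = 1 := by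
    rw [H.piG_mul H.z_mem_H hwH, htz, H.piG_self H.z_mem_P, H.z_mul_self]
  have h4 := (H.piG_eq_one_iff (mul_mem H.z_mem_H hwH)).1 h3
  have h5 : (H.z * w) * (H.z * w) = 1 := by
    calc (H.z * w) * (H.z * w) = H.z * (w * H.z) * w := by group
      _ = H.z * (H.z * w) * w := by rw [hc]
      _ = (H.z * H.z) * (w * w) := by group
      _ = 1 := by rw [H.z_mul_self, h2, one_mul]
  by_cases h6 : H.z * w = 1
  · apply hz
    have h7 : w = H.z⁻¹ := eq_inv_of_mul_eq_one_right h6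
    rw [h7]
    exact inv_eq_of_mul_eq_one_left H.z_mul_self
  · exact h4 (two_dvd_of_invol h5 h6)

open Classical in
/-- The count of involutions with prescribed image is invariant under `P`. -/
theorem DH.card_fiber_conj {p : G} (hp : p ∈ (P : Subgroup G)) (t : G) :
    (H.inv'.filter (fun w => H.piG w = t)).card = (H.inv'.filter (fun w => H.piG w = p * t * p⁻¹)).card := by
  classical
  have hpH := H.le_centralizer_z hp
  have hmem : ∀ (q : G), q ∈ centralizer ({H.z} : Set G) → ∀ w ∈ H.inv', q * w * q⁻¹ ∈ H.inv' := by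
    intro q hq w hw
    obtain ⟨h2, h1, hc, hz⟩ := H.mem_inv'.1 hw
    have hqc : q * H.z = H.z * q := mem_centralizer_singleton_iff.1 hq
    rw [H.mem_inv']
    refine ⟨?_, ?_, ?_, ?_⟩
    · have : (q * w * q⁻¹) * (q * w * q⁻¹) = q * (w * w) * q⁻¹ := by group
      rw [this, h2]
      simp
    · intro h
      apply h1
      have h3 : q * w = q := by
        calc q * w = q * w * q⁻¹ * q := by group
          _ = q := by rw [h]; simp
      simpa using h3
    · have h3 : q⁻¹ * H.z = H.z * q⁻¹ := by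
        calc q⁻¹ * H.z = q⁻¹ * (H.z * q) * q⁻¹ := by group
          _ = q⁻¹ * (q * H.z) * q⁻¹ := by rw [hqc]
          _ = _ := by group
      calc q * w * q⁻¹ * H.z = q * w * (q⁻¹ * H.z) := by group
        _ = q * w * (H.z * q⁻¹) := by rw [h3]
        _ = q * (w * H.z) * q⁻¹ := by group
        _ = q * (H.z * w) * q⁻¹ := by rw [hc]
        _ = (q * H.z) * w * q⁻¹ := by group
        _ = (H.z * q) * w * q⁻¹ := by rw [hqc]
        _ = _ := by group
    · intro h
      apply hz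
      have h3 : q * w = H.z * q := by
        calc q * w = q * w * q⁻¹ * q := by group
          _ = H.z * q := by rw [h]
      rw [← hqc] at h3
      exact mul_left_cancel h3
  have hpi : ∀ w ∈ H.inv', H.piG (p * w * p⁻¹) = p * H.piG w * p⁻¹ := by
    intro w hw
    have hwH : w ∈ centralizer ({H.z} : Set G) := mem_centralizer_singleton_iff.2 (H.mem_inv'.1 hw).2.2.1
    rw [H.piG_conj hpH hwH, H.piG_self hp]
  apply Finset.card_bij (fun w _ => p * w * p⁻¹)
  · intro w hw
    obtain ⟨hw1, hw2⟩ := Finset.mem_filter.1 hw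
    refine Finset.mem_filter.2 ⟨hmem p hpH w hw1, ?_⟩
    rw [hpi w hw1, hw2]
  · intro a _ b _ hab
    simpa using hab
  · intro b hb
    obtain ⟨hb1, hb2⟩ := Finset.mem_filter.1 hb
    have hpinv : p⁻¹ ∈ centralizer ({H.z} : Set G) := inv_mem hpH
    have hm := hmem p⁻¹ hpinv b hb1
    have hbH : b ∈ centralizer ({H.z} : Set G) := mem_centralizer_singleton_iff.2 (H.mem_inv'.1 hb1).2.2.1
    refine ⟨p⁻¹ * b * p⁻¹⁻¹, Finset.mem_filter.2 ⟨hm, ?_⟩, by group⟩
    rw [H.piG_conj hpinv hbH, H.piG_inv hpH, H.piG_self hp, hb2]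
    group

/-- The base case: the sum for a reflection `s` and the central involution. -/
theorem DH.sum_base (Ω : G → ℂ) (hodd : ∀ g, ¬ 2 ∣ orderOf g → Ω g = 0)
    (hsec : ∀ h ∈ centralizer ({H.z} : Set G), H.piG h ≠ 1 → Ω h = Ω (H.piG h))
    (hz : Ω H.z = 2 ^ k) (hvodd : ∀ l, l < 2 ^ k → Odd l → Ω (σ ^ l) = 2)
    (hveven : ∀ l, l < 2 ^ k → Even l → l ≠ 2 ^ (k - 1) → Ω (σ ^ l) = 0)
    {s : G} (hs : s ∈ (P : Subgroup G)) (hsA : s ∉ zpowers σ) [DecidablePred (fun w : G => H.z ∈ zpowers (s * w))] :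
    ∑ w ∈ (invG G).filter (fun w => H.z ∈ zpowers (s * w)), Ω (s * w) = 2 * (H.inv'.card : ℂ) := by
  classical
  have hs2 := (H.refl s hs hsA).1
  have hsinv := (H.refl s hs hsA).2
  have hsH := H.le_centralizer_z hs
  have hsc : s * H.z = H.z * s := H.z_comm hs
  have hs1 : s ≠ 1 := by
    rintro rfl
    exact hsA (one_mem _)
  -- the range of the sum
  have hfil : (invG G).filter (fun w => H.z ∈ zpowers (s * w)) = H.inv'.filter (fun w => H.piG w ≠ s) := by
    ext w
    simp only [Finset.mem_filter, mem_invG, H.mem_inv']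
    constructor
    · rintro ⟨⟨h2, h1⟩, hzm⟩
      have hcz : (s * w) * H.z = H.z * (s * w) := by
        obtain ⟨i, hi⟩ := hzm
        change (s * w) ^ i = H.z at hi
        rw [← hi]
        exact ((Commute.refl (s * w)).zpow_right i).eq
      have hwz : w * H.z = H.z * w := by
        have h3 : s * (w * H.z) = s * (H.z * w) := by
          calc s * (w * H.z) = (s * w) * H.z := by group
            _ = H.z * (s * w) := hcz
            _ = (H.z * s) * w := by group
            _ = (s * H.z) * w := by rw [hsc]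
            _ = _ := by group
        exact mul_left_cancel h3
      have hwH : w ∈ centralizer ({H.z} : Set G) := mem_centralizer_singleton_iff.2 hwz
      refine ⟨⟨h2, h1, hwz, ?_⟩, ?_⟩
      · intro hwe
        rw [hwe] at hzm
        have h3 : (s * H.z) * (s * H.z) = 1 := by
          calc (s * H.z) * (s * H.z) = s * (H.z * s) * H.z := by group
            _ = s * (s * H.z) * H.z := by rw [hsc]
            _ = (s * s) * (H.z * H.z) := by group
            _ = 1 := by rw [hs2, H.z_mul_self, one_mul]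
        rcases mem_zpowers_of_invol h3 hzm with h4 | h4
        · exact H.z_ne_one h4
        · apply hs1
          have h5 : 1 * H.z = s * H.z := by rw [one_mul]; exact h4
          exact (mul_right_cancel h5).symm
      · intro hpi
        have h3 : H.piG (s * w) = 1 := by
          rw [H.piG_mul hsH hwH, hpi, H.piG_self hs, hs2]
        have h4 := (H.piG_eq_one_iff (mul_mem hsH hwH)).1 h3
        apply h4
        have h5 : orderOf H.z ∣ orderOf (s * w) := orderOf_dvd_of_mem_zpowers hzm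
        exact (two_dvd_of_invol H.z_mul_self H.z_ne_one).trans h5
    · rintro ⟨⟨h2, h1, hwz, hwne⟩, hne⟩
      refine ⟨⟨h2, h1⟩, ?_⟩
      have hwH : w ∈ centralizer ({H.z} : Set G) := mem_centralizer_singleton_iff.2 hwz
      have hwm : w ∈ H.inv' := H.mem_inv'.2 ⟨h2, h1, hwz, hwne⟩
      have h3 : H.piG (s * w) = s * H.piG w := by
        rw [H.piG_mul hsH hwH, H.piG_self hs]
      apply H.z_mem_of_pi (mul_mem hsH hwH)
      · rw [h3]
        exact H.prod s hs _ (H.piG_mem w) hsA (H.pi_refl hwm)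
      · rw [h3]
        intro h4
        apply hne
        have h5 : H.piG w = s⁻¹ := eq_inv_of_mul_eq_one_right h4
        rw [h5]
        exact inv_eq_of_mul_eq_one_left hs2
  have hΩ1 : Ω 1 = 0 := hodd 1 (by rw [orderOf_one]; norm_num)
  have hstep : ∑ w ∈ (invG G).filter (fun w => H.z ∈ zpowers (s * w)), Ω (s * w) =
      ∑ w ∈ H.inv', Ω (s * H.piG w) := by
    rw [hfil, Finset.sum_filter]
    refine Finset.sum_congr rfl fun w hw => ?_
    have hwH : w ∈ centralizer ({H.z} : Set G) := mem_centralizer_singleton_iff.2 (H.mem_inv'.1 hw).2.2.1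
    split_ifs with hne
    · have h3 : H.piG (s * w) = s * H.piG w := by
        rw [H.piG_mul hsH hwH, H.piG_self hs]
      rw [hsec _ (mul_mem hsH hwH), h3]
      rw [h3]
      intro h4
      apply hne
      have h5 : H.piG w = s⁻¹ := eq_inv_of_mul_eq_one_right h4
      rw [h5]
      exact inv_eq_of_mul_eq_one_left hs2
    · push Not at hne
      rw [hne, hs2, hΩ1]
  rw [hstep]
  -- parametrize by exponents
  have hq0 : 2 ^ k ≠ 0 := by positivity
  have hex : ∀ w ∈ H.inv', ∃ l, l < 2 ^ k ∧ H.piG w = s * σ ^ l := by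
    intro w hw
    have h3 : s * H.piG w ∈ zpowers σ := H.prod s hs _ (H.piG_mem w) hsA (H.pi_refl hw)
    obtain ⟨m, hm⟩ := (mem_powers_iff_mem_zpowers).2 h3
    have hm' : σ ^ m = s * H.piG w := hm
    refine ⟨m % 2 ^ k, Nat.mod_lt _ (by positivity), ?_⟩
    rw [← H.ord, pow_mod_orderOf, hm', ← mul_assoc, hs2, one_mul]
  choose! lk hlk using hex
  have hinjσ : ∀ a b, a < 2 ^ k → b < 2 ^ k → σ ^ a = σ ^ b → a = b := by
    intro a b ha hb hab
    apply pow_injOn_Iio_orderOf (x := σ)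
    · rw [H.ord]
      exact ha
    · rw [H.ord]
      exact hb
    · exact hab
  set n : ℕ → ℕ := fun l => (H.inv'.filter (fun w => H.piG w = s * σ ^ l)).card with hn
  have hfib : ∀ l, l < 2 ^ k → H.inv'.filter (fun w => lk w = l) = H.inv'.filter (fun w => H.piG w = s * σ ^ l) := by
    intro l hl
    apply Finset.filter_congr
    intro w hw
    constructor
    · intro h
      rw [← h]
      exact (hlk w hw).2
    · intro h
      have h3 := (hlk w hw).2
      rw [h] at h3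
      exact (hinjσ _ _ hl (hlk w hw).1 (mul_left_cancel h3)).symm
  have hcard : H.inv'.card = ∑ l ∈ Finset.range (2 ^ k), n l := by
    rw [Finset.card_eq_sum_card_fiberwise (f := lk) (t := Finset.range (2 ^ k))
      (fun w hw => Finset.mem_range.2 (hlk w hw).1)]
    refine Finset.sum_congr rfl fun l hl => ?_
    rw [hfib l (Finset.mem_range.1 hl)]
  have hsum : ∑ w ∈ H.inv', Ω (s * H.piG w) = ∑ l ∈ Finset.range (2 ^ k), (n l : ℂ) * Ω (σ ^ l) := by
    rw [← Finset.sum_fiberwise_of_maps_to (g := lk) (t := Finset.range (2 ^ k))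
      (fun w hw => Finset.mem_range.2 (hlk w hw).1)]
    refine Finset.sum_congr rfl fun l hl => ?_
    rw [hfib l (Finset.mem_range.1 hl)]
    have h3 : ∀ w ∈ H.inv'.filter (fun w => H.piG w = s * σ ^ l), Ω (s * H.piG w) = Ω (σ ^ l) := by
      intro w hw
      rw [(Finset.mem_filter.1 hw).2, ← mul_assoc, hs2, one_mul]
    rw [Finset.sum_congr rfl h3, Finset.sum_const, nsmul_eq_mul]
  -- invariance
  have hparity : ∀ l i, n (l + 2 * i) = n l := by
    intro l i
    have hp : (σ ^ i)⁻¹ ∈ (P : Subgroup G) := inv_mem (pow_mem H.mem i)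
    have h3 := H.card_fiber_conj hp (s * σ ^ l)
    have h4 : (σ ^ i)⁻¹ * (s * σ ^ l) * (σ ^ i)⁻¹⁻¹ = s * σ ^ (l + 2 * i) := by
      have h5 := hsinv (σ ^ i) (pow_mem (mem_zpowers σ) i)
      have h6 : (σ ^ i)⁻¹ * s = s * σ ^ i := by
        calc (σ ^ i)⁻¹ * s = s * σ ^ i * s⁻¹ * s := by rw [h5]
          _ = _ := by group
      have h7 : σ ^ (l + 2 * i) = σ ^ i * σ ^ l * σ ^ i := by
        rw [show l + 2 * i = i + l + i by ring, pow_add, pow_add]
      rw [h7, inv_inv]
      calc (σ ^ i)⁻¹ * (s * σ ^ l) * σ ^ i = ((σ ^ i)⁻¹ * s) * σ ^ l * σ ^ i := by group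
        _ = (s * σ ^ i) * σ ^ l * σ ^ i := by rw [h6]
        _ = _ := by group
    rw [h4] at h3
    exact h3.symm
  set h := 2 ^ (k - 1) with hh
  have hq2 : 2 * h = 2 ^ k := H.two_pow
  have hheven : 2 ∣ h := by
    rw [hh]
    exact dvd_pow_self 2 (by have := H.hk; omega)
  have hn0 : ∀ i, n (2 * i) = n 0 := fun i => by
    have := hparity 0 i
    rwa [zero_add] at this
  have hn1 : ∀ i, n (2 * i + 1) = n 1 := fun i => by
    have := hparity 1 i
    rwa [add_comm] at this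
  have hcardC : (H.inv'.card : ℂ) = h * ((n 0 : ℂ) + n 1) := by
    rw [hcard, ← hq2]
    push_cast
    rw [sum_range_two_mul]
    simp only [hn0, hn1]
    rw [Finset.sum_const, Finset.card_range, nsmul_eq_mul]
  rw [hsum, ← hq2, sum_range_two_mul, hcardC]
  simp only [hn0, hn1]
  rw [Finset.sum_add_distrib, ← Finset.mul_sum, ← Finset.mul_sum]
  have hE : ∑ i ∈ Finset.range h, Ω (σ ^ (2 * i)) = 2 * h := by
    obtain ⟨c, hc⟩ := hheven
    have hhpos : 0 < h := by
      rw [hh]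
      positivity
    have hc' : c ∈ Finset.range h := Finset.mem_range.2 (by omega)
    rw [Finset.sum_eq_single c]
    · rw [← hc]
      have h3 : σ ^ h = H.z := rfl
      have hq2c : (2 : ℂ) ^ k = 2 * (h : ℂ) := by exact_mod_cast hq2.symm
      rw [h3, hz]
      exact hq2c
    · intro b hb hbc
      apply hveven
      · have := Finset.mem_range.1 hb
        omega
      · exact even_two_mul b
      · intro h3
        apply hbc
        omega
    · intro hn'
      exact absurd hc' hn'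
  have hO : ∑ i ∈ Finset.range h, Ω (σ ^ (2 * i + 1)) = 2 * h := by
    have h3 : ∀ i ∈ Finset.range h, Ω (σ ^ (2 * i + 1)) = 2 := by
      intro i hi
      apply hvodd
      · have := Finset.mem_range.1 hi
        omega
      · exact odd_two_mul_add_one i
    rw [Finset.sum_congr rfl h3, Finset.sum_const, Finset.card_range, nsmul_eq_mul]
    ring
  rw [hE, hO]
  ring

end Sum

section Sum2

variable {G : Type u} [Group G] [Fintype G] {P : Sylow 2 G} {σ : G} {k : ℕ} (H : DH P σ k)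
include H

/-- One class of involutions. -/
theorem DH.invol_conj (hall : ∀ t ∈ (P : Subgroup G), t ∉ zpowers σ → IsConj H.z t) {w : G} (h2 : w * w = 1) (h1 : w ≠ 1) :
    IsConj H.z w := by
  classical
  haveI : Fact (Nat.Prime 2) := ⟨Nat.prime_two⟩
  have hp : IsPGroup 2 (zpowers w) := by
    apply IsPGroup.of_card (n := 1)
    rw [Nat.card_zpowers, pow_one]
    apply orderOf_eq_prime
    · rw [pow_two, h2]
    · exact h1
  obtain ⟨g, hg⟩ := SylowConjLemmas.exists_conj_mem P _ hp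
  have hw := hg w (mem_zpowers w)
  have h3 : (g * w * g⁻¹) * (g * w * g⁻¹) = 1 := by
    have : (g * w * g⁻¹) * (g * w * g⁻¹) = g * (w * w) * g⁻¹ := by group
    rw [this, h2]
    simp
  have h4 : g * w * g⁻¹ ≠ 1 := by
    intro h
    apply h1
    have h5 : g * w = g := by
      calc g * w = g * w * g⁻¹ * g := by group
        _ = g := by rw [h]; simp
    simpa using h5
  have h6 : IsConj w (g * w * g⁻¹) := isConj_iff.2 ⟨g, rfl⟩
  by_cases hA : g * w * g⁻¹ ∈ zpowers σ
  · have h7 := H.eq_of_sq hA h4 h3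
    rw [← h7]
    exact h6.symm
  · exact (hall _ hw hA).trans h6.symm

theorem DH.sum_w (hall : ∀ t ∈ (P : Subgroup G), t ∉ zpowers σ → IsConj H.z t) (Ω : G → ℂ)
    (hcl : ∀ g c, Ω (c * g * c⁻¹) = Ω g) (hodd : ∀ g, ¬ 2 ∣ orderOf g → Ω g = 0)
    (hsec : ∀ h ∈ centralizer ({H.z} : Set G), H.piG h ≠ 1 → Ω h = Ω (H.piG h))
    (hz : Ω H.z = 2 ^ k) (hvodd : ∀ l, l < 2 ^ k → Odd l → Ω (σ ^ l) = 2)
    (hveven : ∀ l, l < 2 ^ k → Even l → l ≠ 2 ^ (k - 1) → Ω (σ ^ l) = 0)
    {w : G} (hw : w ∈ H.inv') [DecidablePred (fun a : G => w ∈ zpowers (H.z * a))] :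
    ∑ a ∈ (invG G).filter (fun a => w ∈ zpowers (H.z * a)), Ω (H.z * a) = 2 * (H.inv'.card : ℂ) := by
  classical
  haveI : Fact (Nat.Prime 2) := ⟨Nat.prime_two⟩
  obtain ⟨h2, h1, hc, hne⟩ := H.mem_inv'.1 hw
  obtain ⟨x, hx⟩ := isConj_iff.1 (H.invol_conj hall h2 h1)
  set s' := x⁻¹ * H.z * x with hs'
  have hs'c : s' * H.z = H.z * s' := by
    have h3 : x⁻¹ * w * x = H.z := by rw [← hx]; group
    have e1 : s' * H.z = x⁻¹ * (H.z * w) * x := by
      rw [hs']
      calc x⁻¹ * H.z * x * H.z = x⁻¹ * H.z * x * (x⁻¹ * w * x) := by rw [h3]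
        _ = _ := by group
    have e2 : H.z * s' = x⁻¹ * (w * H.z) * x := by
      rw [hs']
      calc H.z * (x⁻¹ * H.z * x) = (x⁻¹ * w * x) * (x⁻¹ * H.z * x) := by rw [h3]
        _ = _ := by group
    rw [e1, e2, hc]
  have hs'H : s' ∈ centralizer ({H.z} : Set G) := mem_centralizer_singleton_iff.2 hs'c
  have hs'2 : s' * s' = 1 := by
    rw [hs']
    calc x⁻¹ * H.z * x * (x⁻¹ * H.z * x) = x⁻¹ * (H.z * H.z) * x := by group
      _ = 1 := by rw [H.z_mul_self]; group
  have hpz : IsPGroup 2 (zpowers s') := by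
    apply IsPGroup.of_card (n := 1)
    rw [Nat.card_zpowers, pow_one]
    apply orderOf_eq_prime
    · rw [pow_two, hs'2]
    · intro h
      apply H.z_ne_one
      rw [hs'] at h
      have h3 : H.z * x = x := by
        calc H.z * x = x * (x⁻¹ * H.z * x) := by group
          _ = x := by rw [h, mul_one]
      simpa using h3
  have hle : zpowers s' ≤ centralizer ({H.z} : Set G) := by
    rw [zpowers_le]
    exact hs'H
  obtain ⟨y, hy, hyT⟩ := SylowConjLemmas.exists_conj_mem_of_le P _ H.le_centralizer_z _ hpz hle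
  have hsP := hyT s' (mem_zpowers s')
  set s := y * s' * y⁻¹ with hs
  set c := y * x⁻¹ with hcdef
  have hyz : y * H.z = H.z * y := mem_centralizer_singleton_iff.1 hy
  have hcw : c * w * c⁻¹ = H.z := by
    rw [hcdef, ← hx]
    calc y * x⁻¹ * (x * H.z * x⁻¹) * (y * x⁻¹)⁻¹ = y * H.z * y⁻¹ := by group
      _ = H.z * y * y⁻¹ := by rw [hyz]
      _ = H.z := by group
  have hcz : c * H.z * c⁻¹ = s := by
    rw [hcdef, hs, hs']
    group
  have hs2 : s * s = 1 := by
    rw [← hcz]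
    calc c * H.z * c⁻¹ * (c * H.z * c⁻¹) = c * (H.z * H.z) * c⁻¹ := by group
      _ = 1 := by rw [H.z_mul_self]; group
  have hs1 : s ≠ 1 := by
    rw [← hcz]
    intro h
    apply H.z_ne_one
    have h3 : c * H.z = c := by
      calc c * H.z = c * H.z * c⁻¹ * c := by group
        _ = c := by rw [h]; simp
    simpa using h3
  have hsz : s ≠ H.z := by
    intro h
    apply hne
    have h3 : c * w * c⁻¹ = c * H.z * c⁻¹ := by rw [hcw, hcz, h]
    simpa using h3
  have hsA : s ∉ zpowers σ := fun hA => hsz (H.eq_of_sq hA hs1 hs2)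
  have hbase := H.sum_base Ω hodd hsec hz hvodd hveven hsP hsA
  rw [← hbase]
  refine Finset.sum_nbij' (fun a => c * a * c⁻¹) (fun a => c⁻¹ * a * c) ?_ ?_ ?_ ?_ ?_
  · intro a ha
    obtain ⟨ha1, ha2⟩ := Finset.mem_filter.1 ha
    obtain ⟨ha3, ha4⟩ := mem_invG.1 ha1
    refine Finset.mem_filter.2 ⟨mem_invG.2 ⟨?_, ?_⟩, ?_⟩
    · have : (c * a * c⁻¹) * (c * a * c⁻¹) = c * (a * a) * c⁻¹ := by group
      rw [this, ha3]
      simp
    · intro h
      apply ha4
      have h3 : c * a = c := by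
        calc c * a = c * a * c⁻¹ * c := by group
          _ = c := by rw [h]; simp
      simpa using h3
    · have h3 := mem_zpowers_conj c ha2
      rw [hcw] at h3
      have h4 : c * (H.z * a) * c⁻¹ = s * (c * a * c⁻¹) := by
        rw [← hcz]
        group
      rwa [h4] at h3
  · intro a ha
    obtain ⟨ha1, ha2⟩ := Finset.mem_filter.1 ha
    obtain ⟨ha3, ha4⟩ := mem_invG.1 ha1
    refine Finset.mem_filter.2 ⟨mem_invG.2 ⟨?_, ?_⟩, ?_⟩
    · have : (c⁻¹ * a * c) * (c⁻¹ * a * c) = c⁻¹ * (a * a) * c := by group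
      rw [this, ha3]
      simp
    · intro h
      apply ha4
      have h3 : c⁻¹ * a = c⁻¹ := by
        calc c⁻¹ * a = c⁻¹ * a * c * c⁻¹ := by group
          _ = c⁻¹ := by rw [h]; simp
      simpa using h3
    · have h3 := mem_zpowers_conj c⁻¹ ha2
      rw [inv_inv] at h3
      have h4 : c⁻¹ * H.z * c = w := by
        rw [← hcw]
        group
      have h5 : c⁻¹ * (s * a) * c = H.z * (c⁻¹ * a * c) := by
        rw [← hcz]
        group
      rwa [h4, h5] at h3
  · intro a _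
    group
  · intro a _
    group
  · intro a _
    have h4 : c * (H.z * a) * c⁻¹ = s * (c * a * c⁻¹) := by
      rw [← hcz]
      group
    rw [← hcl (H.z * a) c, h4]

/-- **The count.** -/
theorem DH.sum_invol (hall : ∀ t ∈ (P : Subgroup G), t ∉ zpowers σ → IsConj H.z t) (Ω : G → ℂ)
    (hcl : ∀ g c, Ω (c * g * c⁻¹) = Ω g) (hodd : ∀ g, ¬ 2 ∣ orderOf g → Ω g = 0)
    (hsec : ∀ h ∈ centralizer ({H.z} : Set G), H.piG h ≠ 1 → Ω h = Ω (H.piG h))
    (hz : Ω H.z = 2 ^ k) (hvodd : ∀ l, l < 2 ^ k → Odd l → Ω (σ ^ l) = 2)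
    (hveven : ∀ l, l < 2 ^ k → Even l → l ≠ 2 ^ (k - 1) → Ω (σ ^ l) = 0) :
    ∑ a ∈ invG G, Ω (H.z * a) = 2 * (H.inv'.card : ℂ) ^ 2 := by
  classical
  have hone : ∀ a ∈ invG G, Ω (H.z * a) = ∑ w ∈ H.inv', if w ∈ zpowers (H.z * a) then Ω (H.z * a) else 0 := by
    intro a ha
    obtain ⟨ha2, ha1⟩ := mem_invG.1 ha
    set g := H.z * a with hg
    by_cases h2 : 2 ∣ orderOf g
    · -- the unique involution in `⟨g⟩`
      obtain ⟨m, hm⟩ := h2
      have hm0 : m ≠ 0 := by
        rintro rfl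
        exact (orderOf_pos g).ne' (by simpa using hm)
      set w₀ := g ^ m with hw₀
      have hw₀2 : w₀ * w₀ = 1 := by
        rw [hw₀, ← pow_add, ← two_mul, ← hm, pow_orderOf_eq_one]
      have hw₀1 : w₀ ≠ 1 := pow_ne_one_of_lt_orderOf hm0 (by omega)
      have hzinv : H.z⁻¹ = H.z := inv_eq_of_mul_eq_one_left H.z_mul_self
      have hainv : a⁻¹ = a := inv_eq_of_mul_eq_one_left ha2
      have hginv : H.z * g * H.z⁻¹ = g⁻¹ := by
        rw [hg, mul_inv_rev, hzinv, hainv, ← mul_assoc, H.z_mul_self, one_mul]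
      have hw₀conj : H.z * w₀ * H.z⁻¹ = w₀⁻¹ := by
        rw [hw₀, ← conj_pow, hginv, inv_pow]
      have hw₀inv : w₀⁻¹ = w₀ := inv_eq_of_mul_eq_one_left hw₀2
      have hw₀c : w₀ * H.z = H.z * w₀ := by
        rw [hw₀inv, hzinv] at hw₀conj
        calc w₀ * H.z = (H.z * w₀ * H.z) * H.z := by rw [hw₀conj]
          _ = H.z * w₀ * (H.z * H.z) := by group
          _ = H.z * w₀ := by rw [H.z_mul_self, mul_one]
      have hw₀z : w₀ ≠ H.z := by
        intro he
        have h3 : g * H.z = H.z * g := by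
          rw [← he, hw₀]
          exact ((Commute.refl g).pow_right m).eq
        have h4 : g⁻¹ = g := by
          rw [← hginv, ← h3, hzinv, mul_assoc, H.z_mul_self, mul_one]
        have h5 : g * g = 1 := by
          calc g * g = g⁻¹ * g := by rw [h4]
            _ = 1 := by group
        have h6 : orderOf g ∣ 2 := orderOf_dvd_of_pow_eq_one (by rw [pow_two, h5])
        have h7 : orderOf g = 2 * m := hm
        have h8 : m = 1 := by
          rw [h7] at h6
          have := Nat.le_of_dvd (by norm_num) h6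
          omega
        rw [hw₀, h8, pow_one] at he
        apply ha1
        have h9 : H.z * a = H.z * 1 := by rw [mul_one]; exact he
        exact mul_left_cancel h9
      have hw₀m : w₀ ∈ H.inv' := H.mem_inv'.2 ⟨hw₀2, hw₀1, hw₀c, hw₀z⟩
      have hw₀g : w₀ ∈ zpowers g := pow_mem (mem_zpowers g) m
      rw [Finset.sum_eq_single w₀, if_pos hw₀g]
      · intro b hb hbne
        rw [if_neg]
        intro hbg
        obtain ⟨b2, b1, -, -⟩ := H.mem_inv'.1 hb
        obtain ⟨i, hi⟩ := (mem_powers_iff_mem_zpowers).2 hbg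
        have hi' : g ^ i = b := hi
        have h3 : orderOf g ∣ 2 * i := by
          apply orderOf_dvd_of_pow_eq_one
          rw [two_mul, pow_add, hi', b2]
        rw [hm] at h3
        have h4 : m ∣ i := Nat.dvd_of_mul_dvd_mul_left (by norm_num) h3
        obtain ⟨c, rfl⟩ := h4
        have h5 : b ∈ zpowers w₀ := by
          rw [← hi', pow_mul]
          exact pow_mem (mem_zpowers _) c
        rcases mem_zpowers_of_invol hw₀2 h5 with h6 | h6
        · exact b1 h6
        · exact hbne h6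
      · intro hn
        exact absurd hw₀m hn
    · rw [hodd g h2]
      symm
      apply Finset.sum_eq_zero
      intro w _
      split_ifs <;> rfl
  calc ∑ a ∈ invG G, Ω (H.z * a) = ∑ a ∈ invG G, ∑ w ∈ H.inv', if w ∈ zpowers (H.z * a) then Ω (H.z * a) else 0 :=
        Finset.sum_congr rfl hone
    _ = ∑ w ∈ H.inv', ∑ a ∈ invG G, if w ∈ zpowers (H.z * a) then Ω (H.z * a) else 0 := Finset.sum_comm
    _ = ∑ w ∈ H.inv', ∑ a ∈ (invG G).filter (fun a => w ∈ zpowers (H.z * a)), Ω (H.z * a) := by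
        refine Finset.sum_congr rfl fun w _ => ?_
        rw [Finset.sum_filter]
    _ = ∑ w ∈ H.inv', 2 * (H.inv'.card : ℂ) := by
        refine Finset.sum_congr rfl fun w hw => ?_
        exact H.sum_w hall Ω hcl hodd hsec hz hvodd hveven hw
    _ = 2 * (H.inv'.card : ℂ) ^ 2 := by
        rw [Finset.sum_const, nsmul_eq_mul]
        ring

end Sum2

section Gens

variable {G : Type u} [Group G] [Finite G]

/-- A Sylow subgroup generated by a rotation and a reflection. -/
theorem DH.of_gens (P : Sylow 2 G) (k : ℕ) (hk : 2 ≤ k) (σ τ : G) (hσ : σ ∈ (P : Subgroup G)) (hτ : τ ∈ (P : Subgroup G))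
    (hσo : orderOf σ = 2 ^ k) (hτo : orderOf τ = 2) (hrel : τ * σ * τ⁻¹ = σ⁻¹)
    (hgen : closure ({σ, τ} : Set G) = (P : Subgroup G)) : DH P σ k := by
  have hτ2 : τ * τ = 1 := by
    rw [← pow_two, ← hτo, pow_orderOf_eq_one]
  have hτinv : τ⁻¹ = τ := inv_eq_of_mul_eq_one_left hτ2
  have hinv : ∀ a ∈ zpowers σ, τ * a * τ⁻¹ = a⁻¹ := by
    rintro _ ⟨i, rfl⟩
    change τ * σ ^ i * τ⁻¹ = (σ ^ i)⁻¹
    rw [← conj_zpow, hrel, inv_zpow]
  have hinv' : ∀ a ∈ zpowers σ, τ * a * τ = a⁻¹ := by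
    intro a ha
    have h1 := hinv a ha
    rwa [hτinv] at h1
  have hτA : τ ∉ zpowers σ := by
    intro h
    have h1 := hinv σ (mem_zpowers σ)
    have h2 : τ * σ = σ * τ := by
      obtain ⟨i, hi⟩ := h
      change σ ^ i = τ at hi
      rw [← hi]
      exact ((Commute.refl σ).zpow_left i).eq
    rw [h2] at h1
    have h3 : σ = σ⁻¹ := by
      rw [← h1]
      group
    have h4 : σ ^ 2 = 1 := by
      rw [pow_two]
      nth_rewrite 1 [h3]
      group
    have h5 := orderOf_dvd_of_pow_eq_one h4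
    rw [hσo] at h5
    have h6 := Nat.le_of_dvd (by norm_num) h5
    have h7 : 2 ^ 2 ≤ 2 ^ k := Nat.pow_le_pow_right (by norm_num) hk
    omega
  have hcomm : ∀ a ∈ zpowers σ, a * τ = τ * a⁻¹ := by
    intro a ha
    rw [← hinv' a ha]
    calc a * τ = (τ * τ) * a * τ := by rw [hτ2, one_mul]
      _ = _ := by group
  have hcases : ∀ x ∈ (P : Subgroup G), x ∈ zpowers σ ∨ ∃ a ∈ zpowers σ, x = τ * a := by
    intro x hx
    rw [← hgen] at hx
    induction hx using closure_induction with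
    | mem x hx =>
      rcases hx with rfl | hx
      · exact Or.inl (mem_zpowers _)
      · have hx' : x = τ := hx
        exact Or.inr ⟨1, one_mem _, by rw [mul_one, hx']⟩
    | one => exact Or.inl (one_mem _)
    | mul x y _ _ hx hy =>
      rcases hx with hx | ⟨a, ha, rfl⟩ <;> rcases hy with hy | ⟨b, hb, rfl⟩
      · exact Or.inl (mul_mem hx hy)
      · right
        refine ⟨x⁻¹ * b, mul_mem (inv_mem hx) hb, ?_⟩
        rw [← mul_assoc, hcomm x hx, mul_assoc]
      · exact Or.inr ⟨a * y, mul_mem ha hy, by group⟩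
      · left
        have h2 : τ * a * (τ * b) = a⁻¹ * b := by
          rw [← hinv' a ha]
          group
        rw [h2]
        exact mul_mem (inv_mem ha) hb
    | inv x _ hx =>
      rcases hx with hx | ⟨a, ha, rfl⟩
      · exact Or.inl (inv_mem hx)
      · right
        refine ⟨a, ha, ?_⟩
        have h2 : (τ * a)⁻¹ = a⁻¹ * τ⁻¹ := by group
        rw [h2, ← hinv' a ha, hτinv]
        calc τ * a * τ * τ = τ * a * (τ * τ) := by group
          _ = τ * a := by rw [hτ2, mul_one]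
  have hle : zpowers σ ≤ (P : Subgroup G) := by
    rw [zpowers_le]
    exact hσ
  refine ⟨hσ, hσo, hk, ?_, ?_, ?_⟩
  · intro x hx hxA
    rcases hcases x hx with h | ⟨a, ha, rfl⟩
    · exact absurd h hxA
    · constructor
      · calc τ * a * (τ * a) = (τ * a * τ) * a := by group
          _ = a⁻¹ * a := by rw [hinv' a ha]
          _ = 1 := by group
      · intro b hb
        have h1 := hinv b hb
        have h2 : a * b * a⁻¹ = b := by
          obtain ⟨i, rfl⟩ := ha
          obtain ⟨j, rfl⟩ := hb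
          change σ ^ i * σ ^ j * (σ ^ i)⁻¹ = σ ^ j
          have : σ ^ i * σ ^ j = σ ^ j * σ ^ i := by simp only [← zpow_add, add_comm]
          rw [this]
          group
        calc τ * a * b * (τ * a)⁻¹ = τ * (a * b * a⁻¹) * τ⁻¹ := by group
          _ = τ * b * τ⁻¹ := by rw [h2]
          _ = b⁻¹ := h1
  · intro x hx y hy hxA hyA
    rcases hcases x hx with h | ⟨a, ha, rfl⟩
    · exact absurd h hxA
    · rcases hcases y hy with h | ⟨b, hb, rfl⟩
      · exact absurd h hyA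
      · have h2 : τ * a * (τ * b) = a⁻¹ * b := by
          rw [← hinv' a ha]
          group
        rw [h2]
        exact mul_mem (inv_mem ha) hb
  · -- the order
    have h1 := Subgroup.card_mul_index ((zpowers σ).subgroupOf (P : Subgroup G))
    have h2 : Nat.card ((zpowers σ).subgroupOf (P : Subgroup G)) = 2 ^ k := by
      rw [Nat.card_congr (Subgroup.subgroupOfEquivOfLe hle).toEquiv, Nat.card_zpowers, hσo]
    have h3 : ((zpowers σ).subgroupOf (P : Subgroup G)).index = 2 := by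
      rw [Subgroup.index_eq_two_iff]
      refine ⟨⟨τ, hτ⟩, fun b => ?_⟩
      have hb1 : (b * ⟨τ, hτ⟩ ∈ (zpowers σ).subgroupOf (P : Subgroup G)) ↔ (b : G) * τ ∈ zpowers σ := Subgroup.mem_subgroupOf
      have hb2 : (b ∈ (zpowers σ).subgroupOf (P : Subgroup G)) ↔ (b : G) ∈ zpowers σ := Subgroup.mem_subgroupOf
      rw [hb1, hb2]
      rcases hcases b b.2 with h | ⟨a, ha, hb⟩
      · right
        refine ⟨h, fun h' => hτA ?_⟩
        have h4 : τ = (b : G)⁻¹ * ((b : G) * τ) := by group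
        rw [h4]
        exact mul_mem (inv_mem h) h'
      · left
        refine ⟨?_, fun h' => hτA ?_⟩
        · rw [hb, hinv' a ha]
          exact inv_mem ha
        · rw [hb] at h'
          have h4 : τ = (τ * a) * a⁻¹ := by group
          rw [h4]
          exact mul_mem h' (inv_mem ha)
    rw [h2, h3] at h1
    rw [← h1, pow_succ]

end Gens

section Classes

variable {G : Type u} [Group G] [Finite G] {P : Sylow 2 G} {σ : G} {k : ℕ} (H : DH P σ k)
include H

theorem DH.refl_classes {τ : G} (hτ : τ ∈ (P : Subgroup G)) (hτA : τ ∉ zpowers σ) {t : G} (ht : t ∈ (P : Subgroup G))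
    (htA : t ∉ zpowers σ) :
    (∃ p ∈ (P : Subgroup G), t = p * τ * p⁻¹) ∨ (∃ p ∈ (P : Subgroup G), t = p * (σ * τ) * p⁻¹) := by
  obtain ⟨hτ2, hτinv⟩ := H.refl τ hτ hτA
  have hτi : τ⁻¹ = τ := inv_eq_of_mul_eq_one_left hτ2
  obtain ⟨l, hl⟩ := (mem_powers_iff_mem_zpowers).2 (H.prod τ hτ t ht hτA htA)
  have hl' : σ ^ l = τ * t := hl
  have ht' : t = τ * σ ^ l := by
    rw [hl', ← mul_assoc, hτ2, one_mul]
  have hmove : ∀ i : ℕ, (σ ^ i)⁻¹ * τ = τ * σ ^ i := by
    intro i
    have h5 := hτinv (σ ^ i) (pow_mem (mem_zpowers σ) i)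
    rw [← h5]
    group
  rcases Nat.even_or_odd' l with ⟨i, rfl | rfl⟩
  · left
    refine ⟨(σ ^ i)⁻¹, inv_mem (pow_mem H.mem i), ?_⟩
    rw [ht', hmove, inv_inv, two_mul, pow_add]
    group
  · right
    refine ⟨(σ ^ i)⁻¹ * τ, mul_mem (inv_mem (pow_mem H.mem i)) hτ, ?_⟩
    rw [ht']
    calc τ * σ ^ (2 * i + 1) = τ * σ ^ i * σ * σ ^ i := by
          rw [show 2 * i + 1 = i + 1 + i by ring, pow_add, pow_succ]
          simp only [mul_assoc]
      _ = (σ ^ i)⁻¹ * τ * σ * σ ^ i := by rw [hmove]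
      _ = _ := by
          rw [mul_inv_rev, inv_inv, hτi]
          calc (σ ^ i)⁻¹ * τ * σ * σ ^ i = (σ ^ i)⁻¹ * τ * (σ * 1) * σ ^ i := by rw [mul_one]
            _ = (σ ^ i)⁻¹ * τ * (σ * (τ * τ)) * σ ^ i := by rw [hτ2]
            _ = _ := by group

theorem DH.refl_not_conj {τ : G} (hτ : τ ∈ (P : Subgroup G)) (hτA : τ ∉ zpowers σ) {p : G} (hp : p ∈ (P : Subgroup G)) :
    p * τ * p⁻¹ ≠ σ * τ := by
  obtain ⟨hτ2, hτinv⟩ := H.refl τ hτ hτA
  have hτi : τ⁻¹ = τ := inv_eq_of_mul_eq_one_left hτ2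
  have hconj : ∀ a ∈ zpowers σ, a * τ * a⁻¹ = τ * (a⁻¹ * a⁻¹) := by
    intro a ha
    have h5 := hτinv a⁻¹ (inv_mem ha)
    rw [inv_inv, hτi] at h5
    have h6 : a * τ = τ * a⁻¹ := by
      calc a * τ = (τ * τ) * a * τ := by rw [hτ2, one_mul]
        _ = τ * (τ * a⁻¹⁻¹ * τ) := by simp only [inv_inv]; group
        _ = τ * a⁻¹ := by
          rw [inv_inv]
          have h7 := hτinv a ha
          rw [hτi] at h7
          rw [h7]
    rw [h6]
    group
  have hex : ∃ c ∈ zpowers σ, p * τ * p⁻¹ = τ * (c * c) := by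
    by_cases hpA : p ∈ zpowers σ
    · exact ⟨p⁻¹, inv_mem hpA, hconj p hpA⟩
    · have hb : τ * p ∈ zpowers σ := H.prod τ hτ p hp hτA hpA
      set b := τ * p with hbdef
      have hpb : p = τ * b := by
        rw [hbdef, ← mul_assoc, hτ2, one_mul]
      refine ⟨b, hb, ?_⟩
      have h7 := hconj b hb
      have h8 := hτinv (b⁻¹ * b⁻¹) (mul_mem (inv_mem hb) (inv_mem hb))
      rw [hτi] at h8
      rw [hpb]
      calc τ * b * τ * (τ * b)⁻¹ = τ * (b * τ * b⁻¹) * τ⁻¹ := by group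
        _ = τ * (τ * (b⁻¹ * b⁻¹)) * τ := by rw [h7, hτi]
        _ = (τ * τ) * (b⁻¹ * b⁻¹) * τ := by group
        _ = (b⁻¹ * b⁻¹) * τ := by rw [hτ2, one_mul]
        _ = τ * (τ * (b⁻¹ * b⁻¹) * τ) := by
            rw [← mul_assoc, ← mul_assoc, hτ2, one_mul]
        _ = τ * (b * b) := by
            rw [h8]
            simp only [mul_inv_rev, inv_inv]
  obtain ⟨c, hc, hce⟩ := hex
  intro he
  rw [hce] at he
  -- `σ τ = τ σ⁻¹`
  have h1 : σ * τ = τ * σ⁻¹ := by
    have h7 := hτinv σ⁻¹ (inv_mem (mem_zpowers σ))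
    rw [hτi, inv_inv] at h7
    calc σ * τ = τ * σ⁻¹ * τ * τ := by rw [h7]
      _ = τ * σ⁻¹ * (τ * τ) := by group
      _ = τ * σ⁻¹ := by rw [hτ2, mul_one]
  rw [h1] at he
  have h2 : c * c = σ⁻¹ := mul_left_cancel he
  obtain ⟨j, hj⟩ := (mem_powers_iff_mem_zpowers).2 (inv_mem hc)
  have hj' : σ ^ j = c⁻¹ := hj
  have h3 : σ ^ (2 * j) = σ ^ 1 := by
    rw [pow_one, two_mul, pow_add, hj']
    have h4 : c⁻¹ * c⁻¹ = (c * c)⁻¹ := by group
    rw [h4, h2, inv_inv]
  have h4 := (pow_eq_pow_iff_modEq).1 h3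
  rw [H.ord] at h4
  have h5 : 2 * j ≡ 1 [MOD 2] := h4.of_dvd (dvd_pow_self 2 (by have := H.hk; omega))
  have h6 : (2 * j) % 2 = 1 % 2 := h5
  omega

end Classes

section Orbit

variable {G : Type u} [Group G] [Fintype G]

/-- Orbit-stabilizer for conjugation. -/
theorem card_orbit (L : Subgroup G) (t : G) (S : Finset G) (hS : ∀ w, w ∈ S ↔ ∃ x ∈ L, w = x * t * x⁻¹)
    (K : Subgroup G) (hK : ∀ a, a ∈ K ↔ a ∈ L ∧ a * t = t * a) : S.card * Nat.card K = Nat.card L := by
  classical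
  letI : Fintype L := Fintype.ofFinite _
  let f : L → G := fun a => (a : G) * t * (a : G)⁻¹
  have hKL : K ≤ L := fun a ha => ((hK a).1 ha).1
  have hf : ∀ a b, f a = f b ↔ a⁻¹ * b ∈ K.subgroupOf L := by
    intro a b
    rw [Subgroup.mem_subgroupOf, hK]
    simp only [f, Subgroup.coe_mul, InvMemClass.coe_inv]
    constructor
    · intro h
      refine ⟨mul_mem (inv_mem a.2) b.2, ?_⟩
      have h1 : (b : G) * t = (a : G) * t * (a : G)⁻¹ * b := by
        rw [h]
        group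
      calc (a : G)⁻¹ * b * t = (a : G)⁻¹ * (b * t) := by group
        _ = (a : G)⁻¹ * ((a : G) * t * (a : G)⁻¹ * b) := by rw [h1]
        _ = _ := by group
    · rintro ⟨-, h⟩
      have h1 : (b : G) * t = (a : G) * t * (a : G)⁻¹ * b := by
        calc (b : G) * t = a * ((a : G)⁻¹ * b * t) := by group
          _ = a * (t * ((a : G)⁻¹ * b)) := by rw [h]
          _ = _ := by group
      calc (a : G) * t * (a : G)⁻¹ = (a : G) * t * (a : G)⁻¹ * b * (b : G)⁻¹ := by group
        _ = b * t * (b : G)⁻¹ := by rw [h1]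
  have hcardK : Nat.card (K.subgroupOf L) = Nat.card K := Nat.card_congr (Subgroup.subgroupOfEquivOfLe hKL).toEquiv
  have hmaps : ∀ a ∈ (Finset.univ : Finset L), f a ∈ S := fun a _ => (hS _).2 ⟨a, a.2, rfl⟩
  have h1 := Finset.card_eq_sum_card_fiberwise hmaps
  rw [Finset.card_univ, ← Nat.card_eq_fintype_card] at h1
  rw [h1]
  have h2 : ∀ w ∈ S, (Finset.univ.filter (fun a => f a = w)).card = Nat.card K := by
    intro w hw
    rw [FrobBlock.card_fiber f (K.subgroupOf L) hf w, hcardK, if_pos]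
    obtain ⟨x, hx, rfl⟩ := (hS w).1 hw
    exact ⟨⟨x, hx⟩, rfl⟩
  rw [Finset.sum_congr rfl h2, Finset.sum_const, smul_eq_mul]

end Orbit

section Final

variable {G : Type u} [Group G] [Fintype G] {M : Ideal AlgInt} {P : Sylow 2 G} {σ : G} {k : ℕ} (H : DH P σ k)
include H

theorem DH.value_eq (hM : IsPModular 2 M) {χ : IrrCharacter G} (hχ : χ ∈ principalBlock M G)
    {g y : G} (hgy : IsPPart 2 g y) (hy : y ∈ zpowers σ) (hy1 : y ≠ 1) :
    (χ : G → ℂ) g = (χ : G → ℂ) y := by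
  classical
  obtain ⟨x, rfl, hcomm, hk, hx⟩ := hgy
  obtain ⟨N, hNn, m, hN, hQ⟩ := H.exists_complement hy hy1
  haveI := hNn
  have hxH : x ∈ centralizer ({y} : Set G) := by
    rw [mem_centralizer_singleton_iff]
    exact hcomm.eq.symm
  have huo : ¬ 2 ∣ orderOf (⟨x, hxH⟩ : centralizer ({y} : Set G)) := by
    rwa [Subgroup.orderOf_mk]
  have hucore := SingConst.mem_pPrimeCore_of_coprime N hN m hQ huo
  exact Cfsg.Agent.S0942.result 2 M hM y hk x ⟨⟨x, hxH⟩, hucore, rfl⟩ χ hχ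

theorem DH.value_pi (hM : IsPModular 2 M) (hall : ∀ t ∈ (P : Subgroup G), t ∉ zpowers σ → IsConj H.z t)
    {χ : IrrCharacter G} (hχ : χ ∈ principalBlock M G) {h : G} (hh : h ∈ centralizer ({H.z} : Set G))
    (h1 : H.piG h ≠ 1) : (χ : G → ℂ) h = (χ : G → ℂ) (H.piG h) := by
  classical
  have hcf := CharBasic.isClassFunction_of_isCharacter (CharBasic.IsIrrCharacter.isCharacter χ.2)
  obtain ⟨u, hu⟩ := BlkOrth.exists_isPPart Nat.prime_two h
  obtain ⟨N, hN⟩ := BlkOrth.pPart_exists_pow Nat.prime_two hu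
  have huH : u ∈ centralizer ({H.z} : Set G) := by
    rw [← hN]
    exact pow_mem hh N
  obtain ⟨v, huv, hcomm, ho, hvodd⟩ := id hu
  have hvH : v ∈ centralizer ({H.z} : Set G) := by
    have h3 : v = u⁻¹ * h := by rw [← huv]; group
    rw [h3]
    exact mul_mem (inv_mem huH) hh
  have hpv := (H.piG_eq_one_iff hvH).2 hvodd
  have hpu : H.piG h = H.piG u := by
    rw [← huv, H.piG_mul huH hvH, hpv, mul_one]
  obtain ⟨x, hx, hxu⟩ := H.exists_conj_pi huH ho
  rw [← hpu] at hxu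
  set t := H.piG h with ht
  have htP : t ∈ (P : Subgroup G) := H.piG_mem h
  have hex : ∃ y ∈ zpowers σ, y ≠ 1 ∧ ∃ c, c * t * c⁻¹ = y := by
    by_cases hA : t ∈ zpowers σ
    · exact ⟨t, hA, h1, 1, by simp⟩
    · obtain ⟨c, hc⟩ := isConj_iff.1 (hall t htP hA).symm
      exact ⟨H.z, H.z_mem, H.z_ne_one, c, hc⟩
  obtain ⟨y, hy, hy1, c, hc⟩ := hex
  have hpp := BlkOrth.pPart_conj hu (c * x)
  have h3 : (c * x) * u * (c * x)⁻¹ = y := by
    rw [← hc, ← hxu]
    group
  rw [h3] at hpp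
  have h4 := H.value_eq hM hχ hpp hy hy1
  rw [hcf h (c * x), ← hc, hcf t c] at h4
  exact h4

omit H in
theorem sum_alt {r : ℕ} (hr : Odd r) : ∑ j : Fin r, (-1 : ℂ) ^ ((j : ℕ) + 1) = -1 := by
  rw [Fin.sum_univ_eq_sum_range (fun j => (-1 : ℂ) ^ (j + 1)) r]
  obtain ⟨m, rfl⟩ := hr
  induction m with
  | zero => simp
  | succ m ih =>
    rw [show 2 * (m + 1) + 1 = 2 * m + 1 + 1 + 1 by ring, Finset.sum_range_succ, Finset.sum_range_succ, ih]
    have h1 : (-1 : ℂ) ^ (2 * m + 1 + 1) = 1 := by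
      rw [show 2 * m + 1 + 1 = 2 * (m + 1) by ring, pow_mul]
      simp
    have h2 : (-1 : ℂ) ^ (2 * m + 1 + 1 + 1) = -1 := by
      rw [pow_succ, h1]
      simp
    rw [h1, h2]
    ring

theorem DH.card_invG (hall : ∀ t ∈ (P : Subgroup G), t ∉ zpowers σ → IsConj H.z t) :
    (invG G).card * Nat.card (centralizer ({H.z} : Set G)) = Nat.card G := by
  have h1 := card_orbit (⊤ : Subgroup G) H.z (invG G) (by
    intro w
    rw [mem_invG]
    constructor
    · rintro ⟨h2, h1⟩
      obtain ⟨c, hc⟩ := isConj_iff.1 (H.invol_conj hall h2 h1)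
      exact ⟨c, mem_top c, hc.symm⟩
    · rintro ⟨x, -, rfl⟩
      constructor
      · calc x * H.z * x⁻¹ * (x * H.z * x⁻¹) = x * (H.z * H.z) * x⁻¹ := by group
          _ = 1 := by rw [H.z_mul_self]; group
      · intro h
        apply H.z_ne_one
        have h3 : x * H.z = x := by
          calc x * H.z = x * H.z * x⁻¹ * x := by group
            _ = x := by rw [h]; simp
        simpa using h3) (centralizer ({H.z} : Set G)) (by
    intro a
    rw [mem_centralizer_singleton_iff]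
    simp)
  rw [h1]
  exact Nat.card_congr Subgroup.topEquiv.toEquiv

theorem DH.card_inv'_rat {τ : G} (hτ : τ ∈ (P : Subgroup G)) (hτA : τ ∉ zpowers σ) :
    (H.inv'.card : ℚ) = (Nat.card (centralizer ({H.z} : Set G)) : ℚ) *
      (1 / (Nat.card (centralizer ({H.z, τ} : Set G)) : ℚ) + 1 / (Nat.card (centralizer ({H.z, σ * τ} : Set G)) : ℚ)) := by
  classical
  have hsigA : σ * τ ∉ zpowers σ := by
    intro h
    apply hτA
    have h1 : τ = σ⁻¹ * (σ * τ) := by group
    rw [h1]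
    exact mul_mem (inv_mem (mem_zpowers σ)) h
  have hτ2 := (H.refl τ hτ hτA).1
  have hσP : σ * τ ∈ (P : Subgroup G) := mul_mem H.mem hτ
  have hst2 := (H.refl _ hσP hsigA).1
  have hmemC : ∀ t a : G, a ∈ centralizer ({H.z, t} : Set G) ↔ a ∈ centralizer ({H.z} : Set G) ∧ a * t = t * a := by
    intro t a
    rw [mem_centralizer_singleton_iff, mem_centralizer_iff]
    constructor
    · intro h
      exact ⟨(h H.z (Set.mem_insert _ _)).symm, (h t (Set.mem_insert_of_mem _ rfl)).symm⟩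
    · rintro ⟨h1, h2⟩ b hb
      rcases hb with rfl | hb
      · exact h1.symm
      · have hb' : b = t := hb
        rw [hb']
        exact h2.symm
  -- the classes
  let Sc : G → Finset G := fun t => Finset.univ.filter (fun w => ∃ x ∈ centralizer ({H.z} : Set G), w = x * t * x⁻¹)
  have hSc : ∀ t w, w ∈ Sc t ↔ ∃ x ∈ centralizer ({H.z} : Set G), w = x * t * x⁻¹ := by
    intro t w
    simp [Sc]
  have horb := fun t => card_orbit (centralizer ({H.z} : Set G)) t (Sc t) (hSc t) (centralizer ({H.z, t} : Set G)) (hmemC t)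
  have hinv : ∀ t ∈ (P : Subgroup G), t ∉ zpowers σ → t * t = 1 → Sc t ⊆ H.inv' := by
    intro t ht htA ht2 w hw
    obtain ⟨x, hx, rfl⟩ := (hSc t w).1 hw
    have htH := H.le_centralizer_z ht
    have h1 : x * t * x⁻¹ ∈ centralizer ({H.z} : Set G) := mul_mem (mul_mem hx htH) (inv_mem hx)
    rw [H.mem_inv']
    refine ⟨?_, ?_, mem_centralizer_singleton_iff.1 h1, ?_⟩
    · calc x * t * x⁻¹ * (x * t * x⁻¹) = x * (t * t) * x⁻¹ := by group
        _ = 1 := by rw [ht2]; group
    · intro h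
      have h3 : x * t = x := by
        calc x * t = x * t * x⁻¹ * x := by group
          _ = x := by rw [h]; simp
      have h4 : t = 1 := by simpa using h3
      rw [h4] at htA
      exact htA (one_mem _)
    · intro h
      have h3 : x * t = H.z * x := by
        calc x * t = x * t * x⁻¹ * x := by group
          _ = H.z * x := by rw [h]
      rw [← mem_centralizer_singleton_iff.1 hx] at h3
      have h4 : t = H.z := mul_left_cancel h3
      rw [h4] at htA
      exact htA H.z_mem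
  have hunion : H.inv' = Sc τ ∪ Sc (σ * τ) := by
    apply Finset.Subset.antisymm
    · intro w hw
      obtain ⟨h2, h1, hc, hz⟩ := H.mem_inv'.1 hw
      have hwH : w ∈ centralizer ({H.z} : Set G) := mem_centralizer_singleton_iff.2 hc
      have horder : orderOf w = 2 ^ 1 := by
        haveI : Fact (Nat.Prime 2) := ⟨Nat.prime_two⟩
        rw [pow_one]
        apply orderOf_eq_prime
        · rw [pow_two, h2]
        · exact h1
      obtain ⟨x, hx, hxw⟩ := H.exists_conj_pi hwH ⟨1, horder⟩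
      have hmem : ∀ t : G, ∀ p ∈ (P : Subgroup G), H.piG w = p * t * p⁻¹ → w ∈ Sc t := by
        intro t p hp he
        rw [hSc]
        have hpH := H.le_centralizer_z hp
        refine ⟨x⁻¹ * p, mul_mem (inv_mem hx) hpH, ?_⟩
        rw [← hxw] at he
        calc w = x⁻¹ * (x * w * x⁻¹) * x := by group
          _ = x⁻¹ * (p * t * p⁻¹) * x := by rw [he]
          _ = _ := by group
      rcases H.refl_classes hτ hτA (H.piG_mem w) (H.pi_refl hw) with ⟨p, hp, he⟩ | ⟨p, hp, he⟩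
      · exact Finset.mem_union_left _ (hmem τ p hp he)
      · exact Finset.mem_union_right _ (hmem _ p hp he)
    · apply Finset.union_subset (hinv τ hτ hτA hτ2) (hinv _ hσP hsigA hst2)
  have hdisj : Disjoint (Sc τ) (Sc (σ * τ)) := by
    rw [Finset.disjoint_left]
    intro w hw hw'
    obtain ⟨x, hx, rfl⟩ := (hSc _ _).1 hw
    obtain ⟨y, hy, hy'⟩ := (hSc _ _).1 hw'
    have h1 := congrArg H.piG hy'
    rw [H.piG_conj hx (H.le_centralizer_z hτ), H.piG_conj hy (H.le_centralizer_z hσP), H.piG_self hτ, H.piG_self hσP] at h1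
    apply H.refl_not_conj hτ hτA (p := (H.piG y)⁻¹ * H.piG x) (mul_mem (inv_mem (H.piG_mem y)) (H.piG_mem x))
    calc (H.piG y)⁻¹ * H.piG x * τ * ((H.piG y)⁻¹ * H.piG x)⁻¹ = (H.piG y)⁻¹ * (H.piG x * τ * (H.piG x)⁻¹) * H.piG y := by group
      _ = (H.piG y)⁻¹ * (H.piG y * (σ * τ) * (H.piG y)⁻¹) * H.piG y := by rw [h1]
      _ = _ := by group
  rw [hunion, Finset.card_union_of_disjoint hdisj]
  have h1 := horb τ
  have h2 := horb (σ * τ)
  have hc1 : (Nat.card (centralizer ({H.z, τ} : Set G)) : ℚ) ≠ 0 := by exact_mod_cast Nat.card_pos.ne'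
  have hc2 : (Nat.card (centralizer ({H.z, σ * τ} : Set G)) : ℚ) ≠ 0 := by exact_mod_cast Nat.card_pos.ne'
  have h1' : ((Sc τ).card : ℚ) * (Nat.card (centralizer ({H.z, τ} : Set G)) : ℚ) = (Nat.card (centralizer ({H.z} : Set G)) : ℚ) := by
    exact_mod_cast h1
  have h2' : ((Sc (σ * τ)).card : ℚ) * (Nat.card (centralizer ({H.z, σ * τ} : Set G)) : ℚ) = (Nat.card (centralizer ({H.z} : Set G)) : ℚ) := by
    exact_mod_cast h2
  push_cast
  rw [mul_add, ← h1']
  nth_rewrite 2 [h1']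
  rw [← h2']
  field_simp

end Final

section Final2

variable {G : Type u} [Group G] [Fintype G] {M : Ideal AlgInt} {P : Sylow 2 G} {σ : G} {k : ℕ} (H : DH P σ k)
include H

set_option maxHeartbeats 4000000 in
/-- **The order formula.** -/
theorem DH.order_formula (hM : IsPModular 2 M) {τ : G} (hτ : τ ∈ (P : Subgroup G)) (hτA : τ ∉ zpowers σ)
    (hc₁ : IsConj H.z τ) (hc₂ : IsConj H.z (σ * τ)) (χ₁ : IrrCharacter G) (hχ₁ : χ₁ ∈ principalBlock M G)
    (h1 : χ₁ ≠ BlockNormal.irrOne G) (δ₁ : ℤ) (hδ₁ : δ₁ = 1 ∨ δ₁ = -1)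
    (hval : ∀ l : ℕ, 0 < l → l < 2 ^ k → (χ₁ : G → ℂ) (σ ^ l) = δ₁) :
    ((invG G).card : ℤ) * ((charDegree (χ₁ : G → ℂ) : ℤ) - δ₁) ^ 2 =
      2 * (charDegree (χ₁ : G → ℂ) : ℤ) * ((charDegree (χ₁ : G → ℂ) : ℤ) + δ₁) * (H.inv'.card : ℤ) ^ 2 ∧
      0 < (charDegree (χ₁ : G → ℂ) : ℤ) + δ₁ := by
  classical
  have hall : ∀ t ∈ (P : Subgroup G), t ∉ zpowers σ → IsConj H.z t := by
    intro t ht htA
    rcases H.refl_classes hτ hτA ht htA with ⟨p, hp, rfl⟩ | ⟨p, hp, rfl⟩
    · exact hc₁.trans (isConj_iff.2 ⟨p, rfl⟩)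
    · exact hc₂.trans (isConj_iff.2 ⟨p, rfl⟩)
  have hk2 := H.hk
  set h := 2 ^ (k - 1) with hh
  have hq2 : 2 * h = 2 ^ k := H.two_pow
  have hh2 : 2 ≤ h := by
    rw [hh]
    calc 2 = 2 ^ 1 := by norm_num
      _ ≤ 2 ^ (k - 1) := Nat.pow_le_pow_right (by norm_num) (by omega)
  have hheven : Even h := by
    rw [hh]
    exact (Nat.even_pow.2 ⟨even_two, by omega⟩)
  have hhq : h < 2 ^ k := by omega
  have hq0 : 2 ^ k ≠ 0 := by positivity
  have hζ := Complex.isPrimitiveRoot_exp (2 ^ k) hq0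
  set ζ := Complex.exp (2 * Real.pi * Complex.I / ((2 ^ k : ℕ) : ℂ)) with hζdef
  have hζh : ζ ^ h = -1 := by
    have h1' : ζ ^ h * ζ ^ h = 1 := by
      rw [← pow_add, ← two_mul, hq2]
      exact hζ.pow_eq_one
    have h2 : ζ ^ h ≠ 1 := hζ.pow_ne_one_of_pos_of_lt (by omega) (by omega)
    rcases mul_self_eq_one_iff.1 h1' with h3 | h3
    · exact absurd h3 h2
    · exact h3
  set r := 2 ^ (k - 1) - 1 with hr
  obtain ⟨χa, χ₂, χ₃, χ', δ, δ₂, δ₃, hδ, hδ₂, hδ₃, hinj, h1a, h2a, h3a, h12, h13, h23, hee, hB, hvals, hreg⟩ :=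
    H.main hM hζ r hr
  have hcast : ∀ d : ℤ, (d = 1 ∨ d = -1) → (d : ℂ) * d = 1 := by
    rintro d (rfl | rfl) <;> norm_num
  have hcastne : ∀ d : ℤ, (d = 1 ∨ d = -1) → (d : ℂ) ≠ 0 := by
    rintro d (rfl | rfl) <;> norm_num
  have hpow2 : ∀ m : ℕ, ((-1 : ℂ) ^ m) * ((-1 : ℂ) ^ m) = 1 := by
    intro m
    rw [← mul_pow]
    norm_num
  -- identification of `χ₁`
  have hzval : ∀ j : Fin r, (χ' j : G → ℂ) (σ ^ h) = δ * (2 * (-1) ^ ((j : ℕ) + 1)) := by
    intro j
    rw [(hvals h (by omega) hhq).2.2.2 j, mul_comm ((j : ℕ) + 1) h, pow_mul, hζh]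
    have h3 : (((-1 : ℂ) ^ ((j : ℕ) + 1)))⁻¹ = (-1 : ℂ) ^ ((j : ℕ) + 1) :=
      (eq_inv_of_mul_eq_one_left (hpow2 _)).symm
    rw [h3]
    ring
  have hone_lt : 1 < 2 ^ k := by omega
  have htwo_lt : 2 < 2 ^ k := by
    have h4 : 2 ^ 2 ≤ 2 ^ k := Nat.pow_le_pow_right (by norm_num) hk2
    omega
  have hχa : χ₁ = χa := by
    rcases (hB χ₁).1 hχ₁ with h0 | h0 | h0 | h0 | ⟨j, h0⟩
    · exact absurd h0 h1
    · exact h0
    · exfalso
      have a1 := hval 1 (by norm_num) hone_lt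
      have a2 := hval 2 (by norm_num) htwo_lt
      rw [h0, (hvals 1 (by norm_num) hone_lt).2.1] at a1
      rw [h0, (hvals 2 (by norm_num) htwo_lt).2.1] at a2
      apply hcastne δ₂ hδ₂
      have e1 : (-1 : ℂ) ^ (1 + 1) = 1 := by norm_num
      have e2 : (-1 : ℂ) ^ (2 + 1) = -1 := by norm_num
      rw [e1] at a1
      rw [e2] at a2
      linear_combination (a1 - a2) / 2
    · exfalso
      have a1 := hval 1 (by norm_num) hone_lt
      have a2 := hval 2 (by norm_num) htwo_lt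
      rw [h0, (hvals 1 (by norm_num) hone_lt).2.2.1] at a1
      rw [h0, (hvals 2 (by norm_num) htwo_lt).2.2.1] at a2
      apply hcastne δ₃ hδ₃
      have e1 : (-1 : ℂ) ^ (1 + 1) = 1 := by norm_num
      have e2 : (-1 : ℂ) ^ (2 + 1) = -1 := by norm_num
      rw [e1] at a1
      rw [e2] at a2
      linear_combination (a1 - a2) / 2
    · exfalso
      have a1 := hval h (by omega) hhq
      rw [h0, hzval j] at a1
      -- take squares
      have a2 : (δ₁ : ℂ) * δ₁ = 4 := by
        rw [← a1]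
        have a3 := hcast δ hδ
        have a4 := hpow2 ((j : ℕ) + 1)
        calc (δ : ℂ) * (2 * (-1) ^ ((j : ℕ) + 1)) * ((δ : ℂ) * (2 * (-1) ^ ((j : ℕ) + 1)))
            = ((δ : ℂ) * δ) * 4 * ((-1) ^ ((j : ℕ) + 1) * (-1) ^ ((j : ℕ) + 1)) := by ring
          _ = 4 := by rw [a3, a4]; ring
      rw [hcast δ₁ hδ₁] at a2
      norm_num at a2
  subst hχa
  have hδeq : δ = δ₁ := by
    have a1 := hval 1 (by norm_num) hone_lt
    rw [(hvals 1 (by norm_num) hone_lt).1] at a1
    exact_mod_cast a1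
  subst hδeq
  clear hval
  -- membership in the block
  have hone_mem : BlockNormal.irrOne G ∈ principalBlock M G := (hB _).2 (Or.inl rfl)
  have h₂B : χ₂ ∈ principalBlock M G := (hB _).2 (Or.inr (Or.inr (Or.inl rfl)))
  have h₃B : χ₃ ∈ principalBlock M G := (hB _).2 (Or.inr (Or.inr (Or.inr (Or.inl rfl))))
  have hjB : ∀ j, χ' j ∈ principalBlock M G := fun j => (hB _).2 (Or.inr (Or.inr (Or.inr (Or.inr ⟨j, rfl⟩))))
  -- the class functions
  let f : G → ℂ := fun g => ∑ χ ∈ SingConst.B₀ M G, (χ : G → ℂ) H.z * (χ : G → ℂ) g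
  let θ : G → ℂ := fun g => 1 + δ * (χ₁ : G → ℂ) g + δ₂ * (χ₂ : G → ℂ) g + δ₃ * (χ₃ : G → ℂ) g
  let Ω : G → ℂ := fun g => (f g + θ g) / 2
  have hclass : ∀ (χ : IrrCharacter G) (g c : G), (χ : G → ℂ) (c * g * c⁻¹) = (χ : G → ℂ) g := fun χ g c =>
    CharBasic.isClassFunction_of_isCharacter (CharBasic.IsIrrCharacter.isCharacter χ.2) g c
  have hcl : ∀ g c, Ω (c * g * c⁻¹) = Ω g := by
    intro g c
    simp only [Ω, f, θ, hclass]
  have hfinv : ∀ g : G, f g = ∑ χ ∈ SingConst.B₀ M G, (χ : G → ℂ) H.z * conj ((χ : G → ℂ) g⁻¹) := by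
    intro g
    refine Finset.sum_congr rfl fun χ _ => ?_
    rw [CharBasic.char_conj_eq_inv (CharBasic.IsIrrCharacter.isCharacter χ.2), inv_inv]
  have hzp : ∃ s : ℕ, orderOf H.z = 2 ^ s := H.pelt H.z_mem
  have hodd : ∀ g, ¬ 2 ∣ orderOf g → Ω g = 0 := by
    intro g hg
    have h3 : f g = 0 := by
      rw [hfinv]
      apply SingConst.sum_reg hM hzp H.z_ne_one
      rwa [orderOf_inv]
    have h4 : θ g = 0 := by
      have h5 := (hreg g hg).1
      simp only [θ]
      linear_combination h5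
    simp only [Ω, h3, h4]
    ring
  have hsec : ∀ x ∈ centralizer ({H.z} : Set G), H.piG x ≠ 1 → Ω x = Ω (H.piG x) := by
    intro x hx hx1
    have hpi := fun (χ : IrrCharacter G) (hχ : χ ∈ principalBlock M G) => H.value_pi hM hall hχ hx hx1
    have h3 : f x = f (H.piG x) := by
      refine Finset.sum_congr rfl fun χ hχ => ?_
      rw [hpi χ (SingConst.mem_B₀.1 hχ)]
    have h4 : θ x = θ (H.piG x) := by
      simp only [θ]
      rw [hpi χ₁ hχ₁, hpi χ₂ h₂B, hpi χ₃ h₃B]
    simp only [Ω, h3, h4]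
  -- values of `f`
  have hz_inv : H.z⁻¹ = H.z := inv_eq_of_mul_eq_one_left H.z_mul_self
  have hfne : ∀ y ∈ zpowers σ, y ≠ H.z → f y = 0 := by
    intro y hy hne
    have n1 : y⁻¹ ≠ H.z := by
      intro h3
      apply hne
      rw [← hz_inv, ← h3, inv_inv]
    have n2 : y⁻¹ ≠ H.z⁻¹ := by
      intro h3
      exact hne (inv_injective h3)
    rw [hfinv, H.sum_pp hM H.z_mem H.z_ne_one (inv_mem hy), if_neg n1, if_neg n2, add_zero, mul_zero]
  have hfz : f H.z = 2 ^ (k + 1) := by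
    rw [hfinv, H.sum_pp hM H.z_mem H.z_ne_one (inv_mem H.z_mem), hz_inv, if_pos rfl, pow_succ]
    norm_num
  have hθ : ∀ l, 0 < l → l < 2 ^ k → θ (σ ^ l) = 2 + 2 * (-1) ^ (l + 1) := by
    intro l hl hl'
    obtain ⟨a1, a2, a3, -⟩ := hvals l hl hl'
    simp only [θ]
    rw [a1, a2, a3]
    have b1 := hcast δ hδ
    have b2 := hcast δ₂ hδ₂
    have b3 := hcast δ₃ hδ₃
    linear_combination b1 + (-1) ^ (l + 1) * b2 + (-1) ^ (l + 1) * b3
  have hzσ : σ ^ h = H.z := rfl
  have hσinj : ∀ a b, a < 2 ^ k → b < 2 ^ k → σ ^ a = σ ^ b → a = b := by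
    intro a b ha hb hab
    apply pow_injOn_Iio_orderOf (x := σ)
    · rw [H.ord]
      exact ha
    · rw [H.ord]
      exact hb
    · exact hab
  have hz : Ω H.z = 2 ^ k := by
    simp only [Ω]
    rw [hfz, ← hzσ, hθ h (by omega) hhq, Odd.neg_one_pow hheven.add_one, pow_succ]
    ring
  have hvodd : ∀ l, l < 2 ^ k → Odd l → Ω (σ ^ l) = 2 := by
    intro l hl hlo
    have hl0 : 0 < l := hlo.pos
    have hne : σ ^ l ≠ H.z := by
      intro h3
      have h4 := hσinj l h hl hhq h3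
      rw [h4] at hlo
      exact (Nat.not_even_iff_odd.2 hlo) hheven
    simp only [Ω]
    rw [hfne _ (pow_mem (mem_zpowers σ) l) hne, hθ l hl0 hl, Even.neg_one_pow hlo.add_one]
    norm_num
  have hveven : ∀ l, l < 2 ^ k → Even l → l ≠ 2 ^ (k - 1) → Ω (σ ^ l) = 0 := by
    intro l hl hle hne
    by_cases hl0 : l = 0
    · rw [hl0, pow_zero]
      apply hodd
      rw [orderOf_one]
      norm_num
    have hne' : σ ^ l ≠ H.z := fun h3 => hne (hσinj l h hl hhq h3)
    simp only [Ω]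
    rw [hfne _ (pow_mem (mem_zpowers σ) l) hne', hθ l (Nat.pos_of_ne_zero hl0) hl, Odd.neg_one_pow hle.add_one]
    norm_num
  have hsum := H.sum_invol hall Ω hcl hodd hsec hz hvodd hveven
  -- the class sum
  have hfilter : Finset.univ.filter (IsConj H.z) = invG G := by
    ext w
    rw [Finset.mem_filter, mem_invG]
    constructor
    · rintro ⟨-, hw⟩
      obtain ⟨c, rfl⟩ := isConj_iff.1 hw
      constructor
      · calc c * H.z * c⁻¹ * (c * H.z * c⁻¹) = c * (H.z * H.z) * c⁻¹ := by group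
          _ = 1 := by rw [H.z_mul_self]; group
      · intro h3
        apply H.z_ne_one
        have h4 : c * H.z = c := by
          calc c * H.z = c * H.z * c⁻¹ * c := by group
            _ = c := by rw [h3]; simp
        simpa using h4
    · rintro ⟨h2, h1'⟩
      exact ⟨Finset.mem_univ _, H.invol_conj hall h2 h1'⟩
  set K : ℂ := ((invG G).card : ℂ) with hK
  have hsK : ∀ χ : IrrCharacter G, ∑ a ∈ invG G, (χ : G → ℂ) (H.z * a) =
      K * (χ : G → ℂ) H.z * (χ : G → ℂ) H.z / (χ : G → ℂ) 1 := by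
    intro χ
    have h3 := SingConst.sum_K H.z χ
    rw [hfilter] at h3
    exact h3
  -- values at `z`
  have hz₁ : (χ₁ : G → ℂ) H.z = δ := (hvals h (by omega) hhq).1
  have hz₂ : (χ₂ : G → ℂ) H.z = -δ₂ := by
    rw [← hzσ, (hvals h (by omega) hhq).2.1, Odd.neg_one_pow hheven.add_one]
    ring
  have hz₃ : (χ₃ : G → ℂ) H.z = -δ₃ := by
    rw [← hzσ, (hvals h (by omega) hhq).2.2.1, Odd.neg_one_pow hheven.add_one]
    ring
  have hone : ∀ χ : IrrCharacter G, (χ : G → ℂ) 1 = charDegree (χ : G → ℂ) := fun χ =>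
    CharKernel.one_eq_charDegree (CharBasic.IsIrrCharacter.isCharacter χ.2)
  have hdegne : ∀ χ : IrrCharacter G, (χ : G → ℂ) 1 ≠ 0 := by
    intro χ
    rw [hone]
    exact_mod_cast CharKernel.charDegree_ne_zero χ.2
  set x : ℂ := (χ₁ : G → ℂ) 1 with hx
  have hrel : ∀ j : Fin r, (χ' j : G → ℂ) 1 = x + δ := by
    intro j
    have h3 := (hreg 1 (by rw [orderOf_one]; norm_num)).2 j
    have h4 := hcast δ hδ
    rw [← hx] at h3
    linear_combination (-(δ : ℂ)) * h3 - ((χ' j : G → ℂ) 1 - x) * h4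
  -- expansion of the sum over the block
  have hBsum : ∀ g : IrrCharacter G → ℂ, ∑ χ ∈ SingConst.B₀ M G, g χ =
      g (BlockNormal.irrOne G) + g χ₁ + g χ₂ + g χ₃ + ∑ j, g (χ' j) := by
    intro g
    have hBfin : SingConst.B₀ M G = insert (BlockNormal.irrOne G) (insert χ₁ (insert χ₂ (insert χ₃ (Finset.univ.image χ')))) := by
      ext χ
      rw [SingConst.mem_B₀, hB χ]
      simp only [Finset.mem_insert, Finset.mem_image, Finset.mem_univ, true_and]
      constructor
      · rintro (h0 | h0 | h0 | h0 | ⟨j, h0⟩)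
        · exact Or.inl h0
        · exact Or.inr (Or.inl h0)
        · exact Or.inr (Or.inr (Or.inl h0))
        · exact Or.inr (Or.inr (Or.inr (Or.inl h0)))
        · exact Or.inr (Or.inr (Or.inr (Or.inr ⟨j, h0.symm⟩)))
      · rintro (h0 | h0 | h0 | h0 | ⟨j, h0⟩)
        · exact Or.inl h0
        · exact Or.inr (Or.inl h0)
        · exact Or.inr (Or.inr (Or.inl h0))
        · exact Or.inr (Or.inr (Or.inr (Or.inl h0)))
        · exact Or.inr (Or.inr (Or.inr (Or.inr ⟨j, h0.symm⟩)))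
    have n3 : χ₃ ∉ Finset.univ.image χ' := by
      intro h0
      obtain ⟨j, -, hj⟩ := Finset.mem_image.1 h0
      exact (hee j).2.2.2 hj
    have n2 : χ₂ ∉ insert χ₃ (Finset.univ.image χ') := by
      intro h0
      rcases Finset.mem_insert.1 h0 with h0 | h0
      · exact h23 h0
      · obtain ⟨j, -, hj⟩ := Finset.mem_image.1 h0
        exact (hee j).2.2.1 hj
    have n1 : χ₁ ∉ insert χ₂ (insert χ₃ (Finset.univ.image χ')) := by
      intro h0
      rcases Finset.mem_insert.1 h0 with h0 | h0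
      · exact h12 h0
      · rcases Finset.mem_insert.1 h0 with h0 | h0
        · exact h13 h0
        · obtain ⟨j, -, hj⟩ := Finset.mem_image.1 h0
          exact (hee j).2.1 hj
    have n0 : BlockNormal.irrOne G ∉ insert χ₁ (insert χ₂ (insert χ₃ (Finset.univ.image χ'))) := by
      intro h0
      rcases Finset.mem_insert.1 h0 with h0 | h0
      · exact h1a h0.symm
      · rcases Finset.mem_insert.1 h0 with h0 | h0
        · exact h2a h0.symm
        · rcases Finset.mem_insert.1 h0 with h0 | h0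
          · exact h3a h0.symm
          · obtain ⟨j, -, hj⟩ := Finset.mem_image.1 h0
            exact (hee j).1 hj
    rw [hBfin, Finset.sum_insert n0, Finset.sum_insert n1, Finset.sum_insert n2, Finset.sum_insert n3,
      Finset.sum_image hinj.injOn]
    ring
  have hone1 : ((BlockNormal.irrOne G : IrrCharacter G) : G → ℂ) = fun _ => 1 := rfl
  -- the sum of `f`
  have hsumf : ∑ a ∈ invG G, f (H.z * a) = ∑ χ ∈ SingConst.B₀ M G, (χ : G → ℂ) H.z * (K * (χ : G → ℂ) H.z * (χ : G → ℂ) H.z / (χ : G → ℂ) 1) := by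
    simp only [f]
    rw [Finset.sum_comm]
    refine Finset.sum_congr rfl fun χ _ => ?_
    rw [← Finset.mul_sum, hsK]
  have hsumθ : ∑ a ∈ invG G, θ (H.z * a) = K + δ * (K * (χ₁ : G → ℂ) H.z * (χ₁ : G → ℂ) H.z / (χ₁ : G → ℂ) 1) +
      δ₂ * (K * (χ₂ : G → ℂ) H.z * (χ₂ : G → ℂ) H.z / (χ₂ : G → ℂ) 1) +
      δ₃ * (K * (χ₃ : G → ℂ) H.z * (χ₃ : G → ℂ) H.z / (χ₃ : G → ℂ) 1) := by
    simp only [θ]
    rw [Finset.sum_add_distrib, Finset.sum_add_distrib, Finset.sum_add_distrib, ← Finset.mul_sum, ← Finset.mul_sum, ← Finset.mul_sum,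
      hsK, hsK, hsK, Finset.sum_const, nsmul_eq_mul, mul_one]
  have hd0 := hcast δ hδ
  have hd2 := hcast δ₂ hδ₂
  have hd3 := hcast δ₃ hδ₃
  have hrpos : 0 < r := by
    have h4 : 2 ^ 1 ≤ 2 ^ (k - 1) := Nat.pow_le_pow_right (by norm_num) (by omega)
    omega
  let j₀ : Fin r := ⟨0, hrpos⟩
  have hy0 : x + δ ≠ 0 := by
    rw [← hrel j₀]
    exact hdegne _
  have hx0 : x ≠ 0 := hdegne χ₁
  have hx2 : (χ₂ : G → ℂ) 1 ≠ 0 := hdegne χ₂
  have hx3 : (χ₃ : G → ℂ) 1 ≠ 0 := hdegne χ₃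
  have hrodd : Odd r := by
    have h4 : Even (2 ^ (k - 1)) := Nat.even_pow.2 ⟨even_two, by omega⟩
    have h5 : 1 ≤ 2 ^ (k - 1) := Nat.one_le_two_pow
    rw [hr]
    exact Nat.Even.sub_odd h5 h4 odd_one
  have hterm : ∀ j : Fin r, (χ' j : G → ℂ) H.z * (K * (χ' j : G → ℂ) H.z * (χ' j : G → ℂ) H.z / (χ' j : G → ℂ) 1) =
      8 * K * δ / (x + δ) * (-1) ^ ((j : ℕ) + 1) := by
    intro j
    rw [hrel j, ← hzσ, hzval j]
    have h4 := hpow2 ((j : ℕ) + 1)
    set m : ℂ := (-1) ^ ((j : ℕ) + 1) with hm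
    have e : (δ : ℂ) * (2 * m) * (K * ((δ : ℂ) * (2 * m)) * ((δ : ℂ) * (2 * m)) / (x + δ)) =
        8 * K * (((δ : ℂ) * δ) * δ) * ((m * m) * m) / (x + δ) := by ring
    rw [e, hd0, h4]
    ring
  have hsumj : ∑ j : Fin r, (χ' j : G → ℂ) H.z * (K * (χ' j : G → ℂ) H.z * (χ' j : G → ℂ) H.z / (χ' j : G → ℂ) 1) =
      -(8 * K * δ / (x + δ)) := by
    rw [Finset.sum_congr rfl (fun j _ => hterm j), ← Finset.mul_sum, sum_alt hrodd]
    ring
  have hmain : K * (1 + δ / x - 4 * δ / (x + δ)) = 2 * (H.inv'.card : ℂ) ^ 2 := by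
    rw [← hsum]
    simp only [Ω]
    rw [← Finset.sum_div, Finset.sum_add_distrib, hsumf, hsumθ, hBsum, hsumj, hz₁, hz₂, hz₃, ← hx]
    simp only [hone1]
    have e1 : (δ : ℂ) * (K * δ * δ / x) = K * δ / x := by
      calc (δ : ℂ) * (K * δ * δ / x) = K * δ * ((δ : ℂ) * δ) / x := by ring
        _ = K * δ / x := by rw [hd0, mul_one]
    rw [e1]
    ring
  have hK1 : K * (x - δ) ^ 2 = 2 * x * (x + δ) * (H.inv'.card : ℂ) ^ 2 := by
    have e1 : (1 + δ / x - 4 * δ / (x + δ)) * (x * (x + δ)) = x * (x + δ) + δ * (x + δ) - 4 * δ * x := by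
      field_simp
    calc K * (x - δ) ^ 2 = K * (x * (x + δ) + δ * (x + δ) - 4 * δ * x) := by ring
      _ = (K * (1 + δ / x - 4 * δ / (x + δ))) * (x * (x + δ)) := by rw [mul_assoc K, e1]
      _ = _ := by rw [hmain]; ring
  have hxd : x = ((charDegree (χ₁ : G → ℂ) : ℤ) : ℂ) := by
    rw [hx, hone]
    push_cast
    rfl
  constructor
  · have h5 : (((invG G).card : ℤ) * ((charDegree (χ₁ : G → ℂ) : ℤ) - δ) ^ 2 : ℤ) =
        2 * (charDegree (χ₁ : G → ℂ) : ℤ) * ((charDegree (χ₁ : G → ℂ) : ℤ) + δ) * (H.inv'.card : ℤ) ^ 2 := by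
      apply Int.cast_injective (α := ℂ)
      push_cast
      rw [hxd] at hK1
      push_cast at hK1
      exact hK1
    exact h5
  · have h5 : (χ' j₀ : G → ℂ) 1 = ((charDegree (χ' j₀ : G → ℂ) : ℤ) : ℂ) := by
      rw [hone]
      push_cast
      rfl
    rw [hrel j₀, hxd] at h5
    have h6 : (charDegree (χ₁ : G → ℂ) : ℤ) + δ = (charDegree (χ' j₀ : G → ℂ) : ℤ) := by
      apply Int.cast_injective (α := ℂ)
      push_cast at h5 ⊢
      exact h5
    rw [h6]
    exact_mod_cast CharKernel.charDegree_pos (χ' j₀).2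

end Final2

section Hall

variable {G : Type u} [Group G] [Finite G] {P : Sylow 2 G} {σ : G} {k : ℕ} (H : DH P σ k)
include H

theorem DH.hall_of {τ : G} (hτ : τ ∈ (P : Subgroup G)) (hτA : τ ∉ zpowers σ)
    (hc₁ : IsConj H.z τ) (hc₂ : IsConj H.z (σ * τ)) : ∀ t ∈ (P : Subgroup G), t ∉ zpowers σ → IsConj H.z t := by
  intro t ht htA
  rcases H.refl_classes hτ hτA ht htA with ⟨p, hp, rfl⟩ | ⟨p, hp, rfl⟩
  · exact hc₁.trans (isConj_iff.2 ⟨p, rfl⟩)
  · exact hc₂.trans (isConj_iff.2 ⟨p, rfl⟩)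

end Hall

end Cfsg.Agent.Lib.DihBlock
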