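import Mathlib

/-!
Schur-ring style schemes over the dihedral group `DihedralGroup m`: basic algebra.
An equivalence relation on the group whose class functions are closed under convolution.
-/

namespace Cfsg.Agent.Lib.DihS

open DihedralGroup

noncomputable section

variable {m : ℕ} [NeZero m]

/-- Group algebra of the dihedral group. -/
abbrev Alg (R : Type) [Semiring R] (m : ℕ) := MonoidAlgebra R (DihedralGroup m)

section basics
variable {R : Type} [CommRing R]

/-- Build an element from its coefficient function. -/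
def mk (f : DihedralGroup m → R) : Alg R m :=
  MonoidAlgebra.ofCoeff (Finsupp.equivFunOnFinite.symm f)

@[simp] lemma coeff_mk (f : DihedralGroup m → R) (g : DihedralGroup m) : (mk f).coeff g = f g := rfl

lemma sum_H {M : Type} [AddCommMonoid M] (f : DihedralGroup m → M) :
    ∑ u, f u = ∑ i, f (r i) + ∑ i, f (sr i) := by
  classical
  rw [← Equiv.sum_comp (equivSum (n := m)).symm f, Fintype.sum_sum_type]
  rfl

lemma coeff_mul_eq (x y : Alg R m) (g : DihedralGroup m) :
    (x * y).coeff g = ∑ u, x.coeff u * y.coeff (u⁻¹ * g) := by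
  classical
  rw [MonoidAlgebra.coeff_mul_apply_left, Finsupp.sum_fintype]
  intro i; simp

lemma mul_r (x y : Alg R m) (j : ZMod m) :
    (x * y).coeff (r j) = ∑ i, x.coeff (r i) * y.coeff (r (j - i))
      + ∑ i, x.coeff (sr i) * y.coeff (sr (i + j)) := by
  rw [coeff_mul_eq, sum_H]
  refine congrArg₂ (· + ·) (Finset.sum_congr rfl fun i _ => ?_) (Finset.sum_congr rfl fun i _ => ?_)
  · simp [inv_r, r_mul_r, sub_eq_neg_add]
  · simp [inv_sr, sr_mul_r]

lemma mul_sr (x y : Alg R m) (k : ZMod m) :
    (x * y).coeff (sr k) = ∑ i, x.coeff (r i) * y.coeff (sr (k + i))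
      + ∑ i, x.coeff (sr i) * y.coeff (r (k - i)) := by
  rw [coeff_mul_eq, sum_H]
  refine congrArg₂ (· + ·) (Finset.sum_congr rfl fun i _ => ?_) (Finset.sum_congr rfl fun i _ => ?_)
  · simp [inv_r, r_mul_sr]
  · simp [inv_sr, sr_mul_sr]

lemma coeff_one_eq [DecidableEq (DihedralGroup m)] (g : DihedralGroup m) :
    (1 : Alg R m).coeff g = if g = 1 then 1 else 0 := by
  rw [MonoidAlgebra.one_def, MonoidAlgebra.coeff_single, Finsupp.single_apply]
  simp [eq_comm]

/-- `x^∨(g) = x(g⁻¹)`. -/
def vee (x : Alg R m) : Alg R m := mk fun g => x.coeff g⁻¹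

@[simp] lemma coeff_vee (x : Alg R m) (g : DihedralGroup m) : (vee x).coeff g = x.coeff g⁻¹ := rfl

lemma vee_mul (x y : Alg R m) : vee (x * y) = vee y * vee x := by
  ext g
  rw [coeff_vee, coeff_mul_eq, coeff_mul_eq]
  apply Fintype.sum_equiv (Equiv.mulLeft g)
  intro u
  simp only [coeff_vee, Equiv.coe_mulLeft, mul_inv_rev, inv_inv]
  rw [mul_comm]
  congr 2
  group

lemma ext_coeff {x y : Alg R m} (h : ∀ g, x.coeff g = y.coeff g) : x = y := by
  ext g; exact h g

end basics

/-- Class functions of a relation. -/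
def CF (rel : DihedralGroup m → DihedralGroup m → Prop) (x : Alg ℤ m) : Prop :=
  ∀ g h, rel g h → x.coeff g = x.coeff h

/-- A set closed under a relation. -/
def Closed (rel : DihedralGroup m → DihedralGroup m → Prop) (X : Set (DihedralGroup m)) : Prop :=
  ∀ g h, rel g h → g ∈ X → h ∈ X

open Classical in
/-- Indicator of a set. -/
def ind (X : Set (DihedralGroup m)) : Alg ℤ m := mk fun g => if g ∈ X then 1 else 0

lemma coeff_ind_of_mem {X : Set (DihedralGroup m)} {g} (h : g ∈ X) : (ind X).coeff g = 1 := by
  simp [ind, h]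

lemma coeff_ind_of_not_mem {X : Set (DihedralGroup m)} {g} (h : g ∉ X) : (ind X).coeff g = 0 := by
  simp [ind, h]

lemma coeff_ind_nonneg (X : Set (DihedralGroup m)) (g) : 0 ≤ (ind X).coeff g := by
  by_cases h : g ∈ X
  · rw [coeff_ind_of_mem h]; norm_num
  · rw [coeff_ind_of_not_mem h]

/-- The scheme structure: an equivalence relation on `DihedralGroup m`, with `{1}` a class,
stable under inversion, whose class functions are closed under convolution, and such that no
nontrivial proper subgroup is a union of classes. -/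
structure Scheme (m : ℕ) [NeZero m] where
  rel : DihedralGroup m → DihedralGroup m → Prop
  refl : ∀ g, rel g g
  symm : ∀ {g h}, rel g h → rel h g
  trans : ∀ {g h k}, rel g h → rel h k → rel g k
  one : ∀ {g}, rel g 1 → g = 1
  inv : ∀ {g h}, rel g h → rel g⁻¹ h⁻¹
  mul : ∀ x y : Alg ℤ m, CF rel x → CF rel y → CF rel (x * y)
  prim : ∀ K : Subgroup (DihedralGroup m), Closed rel (K : Set (DihedralGroup m)) → K = ⊥ ∨ K = ⊤

namespace Scheme

variable (S : Scheme m)

lemma cf_ind {X : Set (DihedralGroup m)} (hX : Closed S.rel X) : CF S.rel (ind X) := by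
  intro g h hgh
  by_cases hg : g ∈ X
  · rw [coeff_ind_of_mem hg, coeff_ind_of_mem (hX g h hgh hg)]
  · have hh : h ∉ X := fun hh => hg (hX h g (S.symm hgh) hh)
    rw [coeff_ind_of_not_mem hg, coeff_ind_of_not_mem hh]

lemma cf_one : CF S.rel (1 : Alg ℤ m) := by
  classical
  intro g h hgh
  rw [coeff_one_eq, coeff_one_eq]
  by_cases hg : g = 1
  · subst hg
    have : h = 1 := S.one (S.symm hgh)
    simp [this]
  · have hh : h ≠ 1 := by
      rintro rfl
      exact hg (S.one hgh)
    simp [hg, hh]

lemma cf_add {x y : Alg ℤ m} (hx : CF S.rel x) (hy : CF S.rel y) : CF S.rel (x + y) := by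
  intro g h hgh
  simp [hx g h hgh, hy g h hgh]

lemma cf_pow {x : Alg ℤ m} (hx : CF S.rel x) (n : ℕ) : CF S.rel (x ^ n) := by
  induction n with
  | zero => simpa using S.cf_one
  | succ n ih => rw [pow_succ]; exact S.mul _ _ ih hx

lemma cf_vee {x : Alg ℤ m} (hx : CF S.rel x) : CF S.rel (vee x) := by
  intro g h hgh
  simp only [coeff_vee]
  exact hx _ _ (S.inv hgh)

/-- Level sets of a class function are closed. -/
lemma closed_level {x : Alg ℤ m} (hx : CF S.rel x) (P : ℤ → Prop) :
    Closed S.rel {g | P (x.coeff g)} := by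
  intro g h hgh hg
  change P (x.coeff g) at hg
  change P (x.coeff h)
  rwa [← hx g h hgh]

lemma closed_compl {X : Set (DihedralGroup m)} (hX : Closed S.rel X) : Closed S.rel Xᶜ := by
  intro g h hgh hg hh
  exact hg (hX h g (S.symm hgh) hh)

lemma closed_union {X Y : Set (DihedralGroup m)} (hX : Closed S.rel X) (hY : Closed S.rel Y) :
    Closed S.rel (X ∪ Y) := by
  rintro g h hgh (hg | hg)
  · exact Or.inl (hX g h hgh hg)
  · exact Or.inr (hY g h hgh hg)

lemma closed_inter {X Y : Set (DihedralGroup m)} (hX : Closed S.rel X) (hY : Closed S.rel Y) :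
    Closed S.rel (X ∩ Y) := by
  rintro g h hgh ⟨hg, hg'⟩
  exact ⟨hX g h hgh hg, hY g h hgh hg'⟩

lemma closed_one : Closed S.rel ({1} : Set (DihedralGroup m)) := by
  intro g h hgh hg
  simp only [Set.mem_singleton_iff] at hg ⊢
  subst hg
  exact S.one (S.symm hgh)

lemma closed_class (g : DihedralGroup m) : Closed S.rel {h | S.rel g h} := by
  intro a b hab ha
  exact S.trans ha hab

lemma closed_inv {X : Set (DihedralGroup m)} (hX : Closed S.rel X) : Closed S.rel X⁻¹ := by
  intro g h hgh hg
  simp only [Set.mem_inv] at hg ⊢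
  exact hX _ _ (S.inv hgh) hg

/-- product coefficient lower bound for nonnegative elements -/
lemma coeff_mul_pos {x y : Alg ℤ m} (hx : ∀ g, 0 ≤ x.coeff g) (hy : ∀ g, 0 ≤ y.coeff g)
    {g h : DihedralGroup m} (hg : 0 < x.coeff g) (hh : 0 < y.coeff h) :
    0 < (x * y).coeff (g * h) := by
  rw [coeff_mul_eq]
  have : x.coeff g * y.coeff (g⁻¹ * (g * h)) ≤ ∑ u, x.coeff u * y.coeff (u⁻¹ * (g * h)) :=
    Finset.single_le_sum (f := fun u => x.coeff u * y.coeff (u⁻¹ * (g * h)))
      (fun u _ => mul_nonneg (hx u) (hy _)) (Finset.mem_univ g)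
  refine lt_of_lt_of_le ?_ this
  rw [inv_mul_cancel_left]
  exact mul_pos hg hh

lemma coeff_mul_nonneg {x y : Alg ℤ m} (hx : ∀ g, 0 ≤ x.coeff g) (hy : ∀ g, 0 ≤ y.coeff g)
    (g : DihedralGroup m) : 0 ≤ (x * y).coeff g := by
  rw [coeff_mul_eq]
  exact Finset.sum_nonneg fun u _ => mul_nonneg (hx u) (hy _)

/-- The subgroup generated by a closed set is closed. -/
lemma closed_closure {X : Set (DihedralGroup m)} (hX : Closed S.rel X) :
    Closed S.rel (Subgroup.closure X : Set (DihedralGroup m)) := by
  classical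
  set Y : Set (DihedralGroup m) := X ∪ X⁻¹ with hY
  have hYc : Closed S.rel Y := S.closed_union hX (S.closed_inv hX)
  set y : Alg ℤ m := ind Y with hy
  have hycf : CF S.rel y := S.cf_ind hYc
  have hnn : ∀ n g, 0 ≤ (y ^ n).coeff g := by
    intro n
    induction n with
    | zero =>
      intro g
      rw [pow_zero, coeff_one_eq]
      split_ifs <;> norm_num
    | succ n ih =>
      intro g
      rw [pow_succ]
      exact coeff_mul_nonneg ih (coeff_ind_nonneg _) g
  -- support is inside the closure
  have hsupp : ∀ n g, (y ^ n).coeff g ≠ 0 → g ∈ Subgroup.closure X := by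
    intro n
    induction n with
    | zero =>
      intro g hg
      rw [pow_zero, coeff_one_eq] at hg
      split_ifs at hg with h
      · rw [h]; exact Subgroup.one_mem _
      · exact absurd rfl hg
    | succ n ih =>
      intro g hg
      rw [pow_succ, coeff_mul_eq] at hg
      obtain ⟨u, -, hu⟩ := Finset.exists_ne_zero_of_sum_ne_zero hg
      have hu1 : (y ^ n).coeff u ≠ 0 := left_ne_zero_of_mul hu
      have hu2 : y.coeff (u⁻¹ * g) ≠ 0 := right_ne_zero_of_mul hu
      have hu3 : u⁻¹ * g ∈ Y := by
        by_contra h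
        exact hu2 (coeff_ind_of_not_mem h)
      have hu4 : u⁻¹ * g ∈ Subgroup.closure X := by
        rcases hu3 with h | h
        · exact Subgroup.subset_closure h
        · have := Subgroup.subset_closure (k := X) (Set.mem_inv.1 h)
          simpa using (Subgroup.inv_mem _ this)
      have := Subgroup.mul_mem _ (ih u hu1) hu4
      simpa using this
  -- every element of the closure has positive coefficient in some power
  have hpos : ∀ g ∈ Subgroup.closure X, ∃ n, 0 < (y ^ n).coeff g := by
    intro g hg
    have hg' : g ∈ Submonoid.closure Y := by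
      have := Subgroup.closure_toSubmonoid X
      have h2 : g ∈ (Subgroup.closure X).toSubmonoid := hg
      rw [this] at h2
      exact h2
    induction hg' using Submonoid.closure_induction with
    | mem a ha =>
      refine ⟨1, ?_⟩
      rw [pow_one, hy, coeff_ind_of_mem ha]
      norm_num
    | one =>
      refine ⟨0, ?_⟩
      rw [pow_zero, coeff_one_eq]
      simp
    | mul a b _ _ iha ihb =>
      have ha' : a ∈ Subgroup.closure X := by
        have := Subgroup.closure_toSubmonoid X
        have h2 : a ∈ (Subgroup.closure X).toSubmonoid := by rw [this]; assumption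
        exact h2
      have hb' : b ∈ Subgroup.closure X := by
        have := Subgroup.closure_toSubmonoid X
        have h2 : b ∈ (Subgroup.closure X).toSubmonoid := by rw [this]; assumption
        exact h2
      obtain ⟨n1, h1⟩ := iha ha'
      obtain ⟨n2, h2⟩ := ihb hb'
      refine ⟨n1 + n2, ?_⟩
      rw [pow_add]
      exact coeff_mul_pos (hnn n1) (hnn n2) h1 h2
  intro g h hgh hg
  obtain ⟨n, hn⟩ := hpos g hg
  have : (y ^ n).coeff h = (y ^ n).coeff g := (S.cf_pow hycf n g h hgh).symm
  exact hsupp n h (by rw [this]; exact hn.ne')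

/-- The rotation subgroup. -/
def rotS (m : ℕ) : Subgroup (DihedralGroup m) where
  carrier := {g | ∃ i, g = r i}
  mul_mem' := by
    rintro _ _ ⟨i, rfl⟩ ⟨j, rfl⟩
    exact ⟨i + j, r_mul_r i j⟩
  one_mem' := ⟨0, rfl⟩
  inv_mem' := by
    rintro _ ⟨i, rfl⟩
    exact ⟨-i, inv_r i⟩

lemma sr_not_mem_rotS (k : ZMod m) : (sr k : DihedralGroup m) ∉ rotS m := by
  rintro ⟨i, hi⟩
  cases hi

/-- A closed set of rotations is contained in `{1}`. -/
lemma closed_rot_sub {X : Set (DihedralGroup m)} (hX : Closed S.rel X)
    (hrot : ∀ g ∈ X, ∃ i, g = r i) : ∀ g ∈ X, g = 1 := by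
  have hle : Subgroup.closure X ≤ rotS m := by
    rw [Subgroup.closure_le]
    intro g hg
    exact hrot g hg
  rcases S.prim _ (S.closed_closure hX) with h | h
  · intro g hg
    have : g ∈ Subgroup.closure X := Subgroup.subset_closure hg
    rw [h] at this
    simpa using this
  · exfalso
    have : (sr 0 : DihedralGroup m) ∈ Subgroup.closure X := by rw [h]; trivial
    exact sr_not_mem_rotS 0 (hle this)

/-- parity at involutions -/
lemma even_at_involution (x : Alg ℤ m) {g : DihedralGroup m} (hg : g * g = 1) (hg1 : g ≠ 1) :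
    Even ((x * vee x).coeff g) := by
  have hinv : g⁻¹ = g := inv_eq_of_mul_eq_one_right hg
  have key : (((x * vee x).coeff g : ℤ) : ZMod 2) = 0 := by
    rw [coeff_mul_eq]
    push_cast
    apply Finset.sum_involution (fun u _ => g * u)
    · intro u _
      simp only [coeff_vee, mul_inv_rev, inv_inv, hinv]
      rw [← mul_assoc g g u, hg, one_mul]
      have : ((x.coeff u : ℤ) : ZMod 2) * (x.coeff (g * u) : ℤ) +
          ((x.coeff (g * u) : ℤ) : ZMod 2) * (x.coeff u : ℤ) =
          2 * (((x.coeff u : ℤ) : ZMod 2) * (x.coeff (g * u) : ℤ)) := by ring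
      rw [this]
      have h2 : (2 : ZMod 2) = 0 := by decide
      rw [h2, zero_mul]
    · intro u _ _ hu
      exact hg1 (by simpa using hu)
    · intro u _; exact Finset.mem_univ _
    · intro u _
      rw [← mul_assoc, hg, one_mul]
  have := (ZMod.intCast_zmod_eq_zero_iff_dvd _ 2).1 key
  exact even_iff_two_dvd.2 (by exact_mod_cast this)

/-- For a class function `x`, the coefficients of `x * x^∨` away from `1` are even. -/
lemma even_mul_vee {x : Alg ℤ m} (hx : CF S.rel x) {g : DihedralGroup m} (hg : g ≠ 1) :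
    Even ((x * vee x).coeff g) := by
  set F := x * vee x with hF
  have hFcf : CF S.rel F := S.mul _ _ hx (S.cf_vee hx)
  have hO : Closed S.rel {h | ¬ Even (F.coeff h)} := S.closed_level hFcf (fun v => ¬ Even v)
  have hrot : ∀ h ∈ {h | ¬ Even (F.coeff h)}, ∃ i, h = r i := by
    intro h hh
    cases h with
    | r i => exact ⟨i, rfl⟩
    | sr k =>
      exfalso
      apply hh
      exact even_at_involution x (sr_mul_self k) (by rintro ⟨⟩)
  by_contra hne
  exact hg (S.closed_rot_sub hO hrot g hne)

/-- Classes are inverse closed: `g ~ g⁻¹`. -/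
lemma rel_inv_self (g : DihedralGroup m) : S.rel g g⁻¹ := by
  classical
  by_cases hg : g = 1
  · subst hg; simpa using S.refl 1
  set T : Set (DihedralGroup m) := {h | S.rel g h} with hT
  have hTc := S.closed_class g
  set x := ind T with hx
  have hcf : CF S.rel x := S.cf_ind hTc
  have hcf' : CF S.rel (x + 1) := S.cf_add hcf S.cf_one
  have h1 := S.even_mul_vee hcf hg
  have h2 := S.even_mul_vee hcf' hg
  -- expand
  have hvee1 : vee (1 : Alg ℤ m) = 1 := by
    apply ext_coeff
    intro h
    rw [coeff_vee, coeff_one_eq, coeff_one_eq]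
    simp
  have hveeadd : vee (x + 1) = vee x + 1 := by
    apply ext_coeff
    intro h
    simp
    have := congrArg (fun z => MonoidAlgebra.coeff z h) hvee1
    simp only [coeff_vee] at this
    rw [this]
  have hexp : (x + 1) * vee (x + 1) = x * vee x + x + vee x + 1 := by
    rw [hveeadd]; noncomm_ring
  rw [hexp] at h2
  have hcoeff : ((x * vee x + x + vee x + 1 : Alg ℤ m)).coeff g =
      (x * vee x).coeff g + x.coeff g + x.coeff g⁻¹ + (1 : Alg ℤ m).coeff g := by
    simp
  rw [hcoeff, coeff_one_eq, if_neg hg, add_zero] at h2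
  have h3 : x.coeff g = 1 := coeff_ind_of_mem (S.refl g)
  by_contra hne
  have h4 : x.coeff g⁻¹ = 0 := coeff_ind_of_not_mem hne
  rw [h3, h4] at h2
  have : Even ((x * vee x).coeff g + 1) := by simpa using h2
  have h5 : Even (1 : ℤ) := by
    have := (Int.even_add.1 this).1 h1
    exact this
  exact absurd h5 (by decide)

lemma coeff_inv_of_cf {x : Alg ℤ m} (hx : CF S.rel x) (g : DihedralGroup m) :
    x.coeff g⁻¹ = x.coeff g := (hx g g⁻¹ (S.rel_inv_self g)).symm

lemma vee_of_cf {x : Alg ℤ m} (hx : CF S.rel x) : vee x = x := by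
  apply ext_coeff
  intro g
  rw [coeff_vee]
  exact S.coeff_inv_of_cf hx g

/-- class functions commute -/
lemma comm {x y : Alg ℤ m} (hx : CF S.rel x) (hy : CF S.rel y) : x * y = y * x := by
  have h := S.vee_of_cf (S.mul _ _ hx hy)
  rw [vee_mul, S.vee_of_cf hx, S.vee_of_cf hy] at h
  exact h.symm

/-- Every class different from `{1}` contains a reflection. -/
lemma exists_refl {g : DihedralGroup m} (hg : g ≠ 1) : ∃ k, S.rel g (sr k) := by
  by_contra hne
  push Not at hne
  have hrot : ∀ h ∈ {h | S.rel g h}, ∃ i, h = r i := by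
    intro h hh
    cases h with
    | r i => exact ⟨i, rfl⟩
    | sr k => exact absurd hh (hne k)
  exact hg ((S.closed_rot_sub (S.closed_class g) hrot g (S.refl g)))

/-- Every class different from `{1}` contains a rotation (for `m ≥ 2`). -/
lemma exists_rot (hm : 2 ≤ m) {g : DihedralGroup m} (hg : g ≠ 1) : ∃ i, S.rel g (r i) := by
  classical
  by_contra hne
  push Not at hne
  set T : Set (DihedralGroup m) := {h | S.rel g h} with hT
  have hTc := S.closed_class g
  have hrefl : ∀ h ∈ T, ∃ k, h = sr k := by
    intro h hh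
    cases h with
    | r i => exact absurd hh (hne i)
    | sr k => exact ⟨k, rfl⟩
  set x := ind T with hx
  have hcf : CF S.rel x := S.cf_ind hTc
  -- support of x*x is closed and in rotations
  have hxx : CF S.rel (x * x) := S.mul _ _ hcf hcf
  have hO : Closed S.rel {h | (x * x).coeff h ≠ 0} := S.closed_level hxx (fun v => v ≠ 0)
  have hrot : ∀ h ∈ {h | (x * x).coeff h ≠ 0}, ∃ i, h = r i := by
    intro h hh
    cases h with
    | r i => exact ⟨i, rfl⟩
    | sr k =>
      exfalso
      apply hh
      rw [coeff_mul_eq]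
      apply Finset.sum_eq_zero
      intro u _
      by_cases hu : u ∈ T
      · obtain ⟨l, rfl⟩ := hrefl u hu
        have : (sr l : DihedralGroup m)⁻¹ * sr k ∉ T := by
          intro hc
          obtain ⟨l', hl'⟩ := hrefl _ hc
          rw [inv_sr, sr_mul_sr] at hl'
          cases hl'
        rw [coeff_ind_of_not_mem this, mul_zero]
      · rw [coeff_ind_of_not_mem hu, zero_mul]
  have hone := S.closed_rot_sub hO hrot
  -- T has only one element
  have hT1 : ∀ h ∈ T, h = g := by
    intro h hh
    have hpos : 0 < (x * x).coeff (g * h) :=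
      coeff_mul_pos (coeff_ind_nonneg _) (coeff_ind_nonneg _)
        (by rw [coeff_ind_of_mem (X := T) (S.refl g)]; norm_num)
        (by rw [coeff_ind_of_mem hh]; norm_num)
    have h1 := hone (g * h) hpos.ne'
    obtain ⟨l, hl⟩ := hrefl g (S.refl g)
    have hgg : g * g = 1 := by rw [hl]; exact sr_mul_self l
    have : h = g⁻¹ := eq_inv_of_mul_eq_one_right h1
    rw [this]
    exact inv_eq_of_mul_eq_one_right hgg
  -- {1, g} is a closed subgroup
  obtain ⟨l, hl⟩ := hrefl g (S.refl g)
  have hgg : g * g = 1 := by rw [hl]; exact sr_mul_self l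
  set K : Subgroup (DihedralGroup m) := Subgroup.zpowers g with hK
  have hKmem : ∀ h, h ∈ K ↔ h = 1 ∨ h = g := by
    intro h
    constructor
    · intro hh
      have hord : orderOf g = 2 := by rw [hl]; exact orderOf_sr l
      rw [hK, Subgroup.mem_zpowers_iff] at hh
      obtain ⟨n, rfl⟩ := hh
      rcases Int.even_or_odd' n with ⟨c, rfl | rfl⟩
      · left
        rw [zpow_mul, zpow_ofNat, pow_two, hgg, one_zpow]
      · right
        rw [zpow_add, zpow_mul, zpow_ofNat, pow_two, hgg, one_zpow, one_mul, zpow_one]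
    · rintro (rfl | rfl)
      · exact Subgroup.one_mem _
      · exact Subgroup.mem_zpowers _
  have hKc : Closed S.rel (K : Set (DihedralGroup m)) := by
    intro a b hab ha
    have ha' := (hKmem a).1 ha
    rcases ha' with rfl | rfl
    · have : b = 1 := S.one (S.symm hab)
      rw [this]; exact Subgroup.one_mem _
    · exact (hKmem b).2 (Or.inr (hT1 b hab))
  rcases S.prim K hKc with h | h
  · have : g ∈ K := (hKmem g).2 (Or.inr rfl)
    rw [h] at this
    exact hg (by simpa using this)
  · -- `K = ⊤` has two elements but the group has `2m ≥ 4`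
    have hmem : ∀ a : DihedralGroup m, a = 1 ∨ a = g := by
      intro a
      apply (hKmem a).1
      rw [h]; trivial
    have h1 : (1 : ZMod m) ≠ 0 := by
      have : Fact (1 < m) := ⟨by omega⟩
      exact one_ne_zero
    rcases hmem (r 1) with h2 | h2
    · rw [one_def] at h2
      simp only [r.injEq] at h2
      exact h1 h2
    · rw [hl] at h2
      cases h2

end Scheme

end

end Cfsg.Agent.Lib.DihS
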