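import Mathlib
import Cfsg.Agent.Lib.DihS1

/-!
Dihedral schemes: `q`-th power formulas modulo `q`, multipliers, and the rational fusion.
-/

namespace Cfsg.Agent.Lib.DihS

open DihedralGroup

noncomputable section

variable {m : ℕ} [NeZero m]

section periodic

/-- Sum of a periodic function over `ZMod (d*e)`. -/
lemma sum_zmod_periodic {M : Type} [AddCommMonoid M] (d e : ℕ) [NeZero (d * e)]
    (f : ZMod (d * e) → M) (hf : ∀ i, f (i + (d : ZMod (d * e))) = f i) :
    ∑ i, f i = e • ∑ n ∈ Finset.range d, f (n : ZMod (d * e)) := by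
  have h1 : ∑ i, f i = ∑ n ∈ Finset.range (d * e), f (n : ZMod (d * e)) := by
    refine Finset.sum_nbij' ZMod.val (fun n => (n : ZMod (d * e))) ?_ ?_ ?_ ?_ ?_
    · intro i _; exact Finset.mem_range.2 (ZMod.val_lt i)
    · intro n _; exact Finset.mem_univ _
    · intro i _; exact ZMod.natCast_zmod_val i
    · intro n hn; exact ZMod.val_cast_of_lt (Finset.mem_range.1 hn)
    · intro i _; rw [ZMod.natCast_zmod_val]
  rw [h1]
  have hper : ∀ c n : ℕ, f (((d * c + n : ℕ)) : ZMod (d * e)) = f (n : ZMod (d * e)) := by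
    intro c n
    induction c with
    | zero => simp
    | succ c ih =>
      have : ((d * (c + 1) + n : ℕ) : ZMod (d * e)) = ((d * c + n : ℕ) : ZMod (d * e)) + (d : ZMod (d * e)) := by
        push_cast; ring
      rw [this, hf, ih]
  generalize e = e' at *
  have key : ∀ c : ℕ, ∑ n ∈ Finset.range (d * c), f (n : ZMod (d * e')) =
      c • ∑ n ∈ Finset.range d, f (n : ZMod (d * e')) := by
    intro c
    induction c with
    | zero => simp
    | succ c ih =>
      rw [Nat.mul_succ, Finset.sum_range_add, ih, succ_nsmul]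
      congr 1
      apply Finset.sum_congr rfl
      intro n _
      exact hper c n
  exact key e'

end periodic

section power

variable (q : ℕ) [hq : Fact q.Prime]

instance charP_alg : CharP (Alg (ZMod q) m) q :=
  charP_of_injective_algebraMap (R := ZMod q) (algebraMap (ZMod q) (Alg (ZMod q) m)).injective q

/-- Reduction modulo `q`. -/
def rho : Alg ℤ m →+* Alg (ZMod q) m := MonoidAlgebra.mapRingHom _ (Int.castRingHom _)

@[simp] lemma coeff_rho (x : Alg ℤ m) (g : DihedralGroup m) :
    (rho q x).coeff g = ((x.coeff g : ℤ) : ZMod q) := by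
  simp [rho, MonoidAlgebra.coeff_mapRingHom]

variable {q}

/-- Rotation part. -/
def rotPart (y : Alg (ZMod q) m) : Alg (ZMod q) m :=
  mk fun g => match g with
    | r i => y.coeff (r i)
    | sr _ => 0

/-- Reflection part. -/
def refPart (y : Alg (ZMod q) m) : Alg (ZMod q) m :=
  mk fun g => match g with
    | r _ => 0
    | sr i => y.coeff (sr i)

@[simp] lemma rotPart_r (y : Alg (ZMod q) m) (i) : (rotPart y).coeff (r i) = y.coeff (r i) := rfl
@[simp] lemma rotPart_sr (y : Alg (ZMod q) m) (i) : (rotPart y).coeff (sr i) = 0 := rfl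
@[simp] lemma refPart_r (y : Alg (ZMod q) m) (i) : (refPart y).coeff (r i) = 0 := rfl
@[simp] lemma refPart_sr (y : Alg (ZMod q) m) (i) : (refPart y).coeff (sr i) = y.coeff (sr i) := rfl

lemma rot_add_ref (y : Alg (ZMod q) m) : y = rotPart y + refPart y := by
  apply ext_coeff
  rintro (i | i) <;> simp

lemma commute_parts (y : Alg (ZMod q) m) (hsym : ∀ i, y.coeff (r (-i)) = y.coeff (r i)) :
    Commute (rotPart y) (refPart y) := by
  apply ext_coeff
  rintro (j | k)
  · simp [mul_r]
  · simp only [mul_sr, rotPart_r, refPart_sr, rotPart_sr, refPart_r, zero_mul, mul_zero,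
      Finset.sum_const_zero, add_zero, zero_add]
    refine Fintype.sum_equiv (Equiv.addLeft k) _ _ ?_
    intro i
    simp only [Equiv.coe_addLeft]
    rw [show k - (k + i) = -i by ring, hsym, mul_comm]

lemma rotPart_eq_sum (y : Alg (ZMod q) m) :
    rotPart y = ∑ i, MonoidAlgebra.single (r i) (y.coeff (r i)) := by
  classical
  apply ext_coeff
  rintro (j | k)
  · simp only [rotPart_r, MonoidAlgebra.coeff_sum, Finsupp.finset_sum_apply,
      MonoidAlgebra.coeff_single, Finsupp.single_apply, r.injEq]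
    simp
  · simp only [rotPart_sr, MonoidAlgebra.coeff_sum, Finsupp.finset_sum_apply,
      MonoidAlgebra.coeff_single, Finsupp.single_apply]
    simp

lemma pow_sum_comm {ι : Type} (s : Finset ι) (f : ι → Alg (ZMod q) m)
    (h : ∀ i j, Commute (f i) (f j)) : (∑ i ∈ s, f i) ^ q = ∑ i ∈ s, f i ^ q := by
  classical
  induction s using Finset.induction_on with
  | empty =>
    simp [zero_pow hq.out.ne_zero]
  | insert a s ha ih =>
    rw [Finset.sum_insert ha, Finset.sum_insert ha, add_pow_char_of_commute, ih]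
    exact Commute.sum_right _ _ _ fun j _ => h a j

lemma rotPart_pow (y : Alg (ZMod q) m) :
    rotPart y ^ q = ∑ i, MonoidAlgebra.single (r (i * (q : ZMod m))) (y.coeff (r i)) := by
  rw [rotPart_eq_sum, pow_sum_comm]
  · apply Finset.sum_congr rfl
    intro i _
    rw [MonoidAlgebra.single_pow, r_pow, ZMod.pow_card]
  · intro i j
    show _ * _ = _ * _
    rw [MonoidAlgebra.single_mul_single, MonoidAlgebra.single_mul_single, r_mul_r, r_mul_r,
      add_comm, mul_comm]

lemma rotPart_pow_r (y : Alg (ZMod q) m) (j : ZMod m) :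
    (rotPart y ^ q).coeff (r j) = ∑ i, if i * (q : ZMod m) = j then y.coeff (r i) else 0 := by
  classical
  rw [rotPart_pow]
  simp only [MonoidAlgebra.coeff_sum, Finsupp.finset_sum_apply,
      MonoidAlgebra.coeff_single, Finsupp.single_apply, r.injEq]

lemma rotPart_pow_sr (y : Alg (ZMod q) m) (k : ZMod m) :
    (rotPart y ^ q).coeff (sr k) = 0 := by
  classical
  rw [rotPart_pow]
  simp only [MonoidAlgebra.coeff_sum, Finsupp.finset_sum_apply,
      MonoidAlgebra.coeff_single, Finsupp.single_apply]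
  simp

/-- Supported on reflections. -/
def OnRefl (y : Alg (ZMod q) m) : Prop := ∀ i, y.coeff (r i) = 0
/-- Supported on rotations. -/
def OnRot (y : Alg (ZMod q) m) : Prop := ∀ i, y.coeff (sr i) = 0

lemma onRot_one : OnRot (1 : Alg (ZMod q) m) := by
  classical
  intro i
  rw [coeff_one_eq, if_neg]
  intro h
  cases h

lemma onRot_mul {x y : Alg (ZMod q) m} (hx : OnRefl x) (hy : OnRefl y) : OnRot (x * y) := by
  intro k
  rw [mul_sr]
  simp [hx _, hy _]

lemma onRefl_mul {x y : Alg (ZMod q) m} (hx : OnRot x) (hy : OnRefl y) : OnRefl (x * y) := by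
  intro j
  rw [mul_r]
  simp [hx _, hy _]

lemma onRot_mul' {x y : Alg (ZMod q) m} (hx : OnRot x) (hy : OnRot y) : OnRot (x * y) := by
  intro k
  rw [mul_sr]
  simp [hx _, hy _]

lemma refPart_onRefl (y : Alg (ZMod q) m) : OnRefl (refPart y) := fun _ => rfl

lemma refPart_pow_odd (y : Alg (ZMod q) m) (hodd : q ≠ 2) : OnRefl (refPart y ^ q) := by
  have hq2 : Odd q := hq.out.odd_of_ne_two hodd
  obtain ⟨n, hn⟩ := hq2
  have h0 : refPart y ^ q = refPart y ^ (2 * n + 1) := congrArg (fun k => refPart y ^ k) hn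
  rw [h0, pow_succ, pow_mul]
  apply onRefl_mul _ (refPart_onRefl y)
  have h2 : OnRot (refPart y ^ 2) := by
    rw [pow_two]; exact onRot_mul (refPart_onRefl y) (refPart_onRefl y)
  have key : ∀ k : ℕ, OnRot ((refPart y ^ 2) ^ k) := by
    intro k
    induction k with
    | zero => simpa using onRot_one
    | succ k ih =>
      rw [pow_succ]
      exact onRot_mul' ih h2
  exact key n

/-- Coefficient of the `q`-th power at a rotation, for `q` an odd prime. -/
lemma pow_coeff_r (y : Alg (ZMod q) m) (hsym : ∀ i, y.coeff (r (-i)) = y.coeff (r i))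
    (hodd : q ≠ 2) (j : ZMod m) :
    (y ^ q).coeff (r j) = ∑ i, if i * (q : ZMod m) = j then y.coeff (r i) else 0 := by
  classical
  conv_lhs => rw [rot_add_ref y]
  rw [add_pow_char_of_commute _ (commute_parts y hsym)]
  have h2 : (refPart y ^ q).coeff (r j) = 0 := refPart_pow_odd y hodd j
  have hadd : (rotPart y ^ q + refPart y ^ q).coeff (r j) =
      (rotPart y ^ q).coeff (r j) + (refPart y ^ q).coeff (r j) := by simp
  rw [hadd, h2, add_zero, rotPart_pow_r]

/-- If the square of the reflection part vanishes, then the `q`-th power is the `q`-th power of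
the rotation part. -/
lemma pow_eq_of_ref_sq (y : Alg (ZMod q) m) (hsym : ∀ i, y.coeff (r (-i)) = y.coeff (r i))
    (hsq : refPart y * refPart y = 0) : y ^ q = rotPart y ^ q := by
  conv_lhs => rw [rot_add_ref y]
  rw [add_pow_char_of_commute _ (commute_parts y hsym)]
  have h2 : 2 ≤ q := hq.out.two_le
  have : refPart y ^ q = 0 := by
    obtain ⟨c, hc⟩ := Nat.exists_eq_add_of_le h2
    have h0 : refPart y ^ q = refPart y ^ (2 + c) := congrArg (fun k => refPart y ^ k) hc
    rw [h0, pow_add, pow_two, hsq, zero_mul]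
  rw [this, add_zero]

lemma ref_sq_zero (y : Alg (ZMod q) m)
    (h : ∀ j, ∑ i, y.coeff (sr i) * y.coeff (sr (i + j)) = 0) :
    refPart y * refPart y = 0 := by
  apply ext_coeff
  rintro (j | k)
  · rw [mul_r]
    simpa using h j
  · rw [mul_sr]
    simp

end power

section arith

lemma sum_ite_mul_unit {M : Type} [AddCommMonoid M] (c : ZMod m) (t : (ZMod m)ˣ)
    (hc : c = ((t⁻¹ : (ZMod m)ˣ) : ZMod m)) (f : ZMod m → M) (j : ZMod m) :
    (∑ i, if i * c = j then f i else 0) = f ((t : ZMod m) * j) := by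
  classical
  have h : ∀ i, (i * c = j) ↔ i = (t : ZMod m) * j := by
    intro i
    subst hc
    constructor
    · rintro rfl
      rw [mul_comm i, ← mul_assoc, Units.mul_inv, one_mul]
    · rintro rfl
      rw [mul_comm (t : ZMod m) j, mul_assoc, Units.mul_inv, mul_one]
  simp only [h]
  simp

/-- A unit modulo `m` is represented by arbitrarily large primes. -/
lemma exists_prime_unit (t : (ZMod m)ˣ) (n : ℕ) :
    ∃ q, n < q ∧ q.Prime ∧ ((q : ZMod m) = (t : ZMod m)) := by
  obtain ⟨q, h1, h2, h3⟩ := Nat.forall_exists_prime_gt_and_eq_mod (q := m) (a := (t : ZMod m))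
    t.isUnit n
  exact ⟨q, h1, h2, h3⟩

/-- Two elements of `ZMod m` with the same additive order differ by a unit. -/
lemma exists_unit_of_addOrderOf_eq {i j : ZMod m} (h : addOrderOf i = addOrderOf j) :
    ∃ t : (ZMod m)ˣ, (t : ZMod m) * i = j := by
  classical
  have hm : m ≠ 0 := NeZero.ne m
  set a := i.val with ha
  set b := j.val with hb
  have hai : (a : ZMod m) = i := ZMod.natCast_zmod_val i
  have hbj : (b : ZMod m) = j := ZMod.natCast_zmod_val j
  have oi : addOrderOf i = m / Nat.gcd m a := by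
    rw [← hai]; exact ZMod.addOrderOf_coe a hm
  have oj : addOrderOf j = m / Nat.gcd m b := by
    rw [← hbj]; exact ZMod.addOrderOf_coe b hm
  set e := Nat.gcd m a with he
  have hepos : 0 < e := Nat.gcd_pos_of_pos_left _ (Nat.pos_of_ne_zero hm)
  have hem : e ∣ m := Nat.gcd_dvd_left _ _
  have hfpos : 0 < Nat.gcd m b := Nat.gcd_pos_of_pos_left _ (Nat.pos_of_ne_zero hm)
  have hfm : Nat.gcd m b ∣ m := Nat.gcd_dvd_left _ _
  have heq : Nat.gcd m b = e := by
    have h1 : m / e = m / Nat.gcd m b := by rw [← oi, ← oj, h]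
    have h2 : m / e * e = m := Nat.div_mul_cancel hem
    have h3 : m / Nat.gcd m b * Nat.gcd m b = m := Nat.div_mul_cancel hfm
    rw [← h1] at h3
    have h4 : 0 < m / e := Nat.div_pos (Nat.le_of_dvd (Nat.pos_of_ne_zero hm) hem) hepos
    exact Nat.eq_of_mul_eq_mul_left h4 (by rw [h3, h2])
  obtain ⟨a', ha'⟩ : e ∣ a := Nat.gcd_dvd_right _ _
  obtain ⟨b', hb'⟩ : e ∣ b := heq ▸ Nat.gcd_dvd_right _ _
  obtain ⟨d, hd⟩ := hem
  have hdpos : 0 < d := by
    rcases Nat.eq_zero_or_pos d with h0 | h0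
    · subst h0; simp at hd; exact absurd hd hm
    · exact h0
  have hca : Nat.Coprime a' d := by
    have : Nat.gcd (e * d) (e * a') = e * 1 := by
      rw [mul_one, ← hd, ← ha']
    rw [Nat.gcd_mul_left] at this
    have h1 : Nat.gcd d a' = 1 := Nat.eq_of_mul_eq_mul_left hepos this
    exact Nat.Coprime.symm h1
  have hcb : Nat.Coprime b' d := by
    have : Nat.gcd (e * d) (e * b') = e * 1 := by
      rw [mul_one, ← hd, ← hb', heq]
    rw [Nat.gcd_mul_left] at this
    have h1 : Nat.gcd d b' = 1 := Nat.eq_of_mul_eq_mul_left hepos this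
    exact Nat.Coprime.symm h1
  have : NeZero d := ⟨hdpos.ne'⟩
  have ua : IsUnit ((a' : ZMod d)) := (ZMod.isUnit_iff_coprime a' d).2 hca
  have ub : IsUnit ((b' : ZMod d)) := (ZMod.isUnit_iff_coprime b' d).2 hcb
  obtain ⟨Ua, hUa⟩ := ua
  obtain ⟨Ub, hUb⟩ := ub
  have hdm : d ∣ m := ⟨e, by rw [hd]; ring⟩
  obtain ⟨t, ht⟩ := ZMod.unitsMap_surjective hdm (Ub * Ua⁻¹)
  refine ⟨t, ?_⟩
  -- lift to naturals
  set T := ((t : ZMod m)).val with hT
  have hTt : (T : ZMod m) = t := ZMod.natCast_zmod_val _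
  have hTd : (T : ZMod d) = ((Ub * Ua⁻¹ : (ZMod d)ˣ) : ZMod d) := by
    have h1 := congrArg (fun u : (ZMod d)ˣ => (u : ZMod d)) ht
    simp only [ZMod.unitsMap_def, Units.coe_map] at h1
    rw [← h1]
    simp only [MonoidHom.coe_coe]
    rw [← hTt, map_natCast]
  have hcong : (T * a' : ZMod d) = b' := by
    rw [hTd, ← hUa, ← hUb]
    simp
  have hcong2 : T * a' ≡ b' [MOD d] := by
    rw [← ZMod.natCast_eq_natCast_iff]
    push_cast
    exact hcong
  have hfin : (T * a : ZMod m) = b := by
    have h1 : T * a ≡ b [MOD m] := by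
      rw [ha', hb', hd]
      have := Nat.ModEq.mul_left' e hcong2
      have h2 : T * (e * a') = e * (T * a') := by ring
      rw [h2]
      exact this
    have := (ZMod.natCast_eq_natCast_iff _ _ _).2 h1
    push_cast at this
    exact this
  rw [← hTt, ← hai, ← hbj]
  exact hfin

end arith

namespace Scheme

variable (S : Scheme m)

/-- `q`-th power formula for class functions, `q` an odd prime. -/
lemma pow_coeff_r (q : ℕ) [Fact q.Prime] (hodd : q ≠ 2) {x : Alg ℤ m} (hx : CF S.rel x)
    (j : ZMod m) :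
    (((x ^ q).coeff (r j) : ℤ) : ZMod q) =
      ∑ i, if i * (q : ZMod m) = j then ((x.coeff (r i) : ℤ) : ZMod q) else 0 := by
  have h1 : rho q (x ^ q) = (rho q x) ^ q := map_pow _ _ _
  have h2 := congrArg (fun z => MonoidAlgebra.coeff z (r j)) h1
  simp only [coeff_rho] at h2
  rw [h2]
  have hsym : ∀ i, (rho q x).coeff (r (-i)) = (rho q x).coeff (r i) := by
    intro i
    simp only [coeff_rho]
    have := S.coeff_inv_of_cf hx (r i)
    rw [inv_r] at this
    rw [this]
  rw [DihS.pow_coeff_r _ hsym hodd]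
  simp only [coeff_rho]

/-- `q`-th power formula when `q` is a unit modulo `m`. -/
lemma pow_coeff_unit (q : ℕ) [Fact q.Prime] (hodd : q ≠ 2) (t : (ZMod m)ˣ)
    (hq : (q : ZMod m) = ((t⁻¹ : (ZMod m)ˣ) : ZMod m)) {x : Alg ℤ m} (hx : CF S.rel x)
    (j : ZMod m) :
    (((x ^ q).coeff (r j) : ℤ) : ZMod q) = ((x.coeff (r ((t : ZMod m) * j)) : ℤ) : ZMod q) := by
  rw [S.pow_coeff_r q hodd hx j]
  exact sum_ite_mul_unit _ t hq (fun i => ((x.coeff (r i) : ℤ) : ZMod q)) j

/-- Multipliers preserve the relation on rotations. -/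
lemma mult (t : (ZMod m)ˣ) {i j : ZMod m} (h : S.rel (r i) (r j)) :
    S.rel (r ((t : ZMod m) * i)) (r ((t : ZMod m) * j)) := by
  classical
  obtain ⟨q, hq2, hqp, hqt⟩ := exists_prime_unit (t⁻¹) 2
  have : Fact q.Prime := ⟨hqp⟩
  set g : DihedralGroup m := r ((t : ZMod m) * i) with hg
  set x := ind {h | S.rel g h} with hx
  have hcf : CF S.rel x := S.cf_ind (S.closed_class g)
  have h1 := S.pow_coeff_unit q (by omega) t hqt hcf i
  have h2 := S.pow_coeff_unit q (by omega) t hqt hcf j
  have h3 : (x ^ q).coeff (r i) = (x ^ q).coeff (r j) := S.cf_pow hcf q _ _ h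
  rw [h3, h2] at h1
  have h4 : x.coeff (r ((t : ZMod m) * i)) = 1 := coeff_ind_of_mem (X := {h | S.rel g h}) (S.refl g)
  rw [h4] at h1
  by_contra hne
  have h5 : x.coeff (r ((t : ZMod m) * j)) = 0 := coeff_ind_of_not_mem hne
  rw [h5] at h1
  have h6 : ((0 : ℤ) : ZMod q) = ((1 : ℤ) : ZMod q) := h1
  simp at h6

/-- The rational fusion relation. -/
def fuseRel (g h : DihedralGroup m) : Prop :=
  ∃ (t : (ZMod m)ˣ) (i : ZMod m), S.rel g (r i) ∧ S.rel (r ((t : ZMod m) * i)) h

lemma rel_fuse (hm : 2 ≤ m) {g h : DihedralGroup m} (hgh : S.rel g h) : S.fuseRel g h := by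
  by_cases hg : g = 1
  · subst hg
    exact ⟨1, 0, S.refl _, by simpa using hgh⟩
  · obtain ⟨i, hi⟩ := S.exists_rot hm hg
    exact ⟨1, i, hi, by simpa using S.trans (S.symm hi) hgh⟩

lemma cf_fuse_iff (hm : 2 ≤ m) (x : Alg ℤ m) :
    CF S.fuseRel x ↔ CF S.rel x ∧ ∀ (t : (ZMod m)ˣ) (i : ZMod m),
      x.coeff (r ((t : ZMod m) * i)) = x.coeff (r i) := by
  constructor
  · intro hx
    refine ⟨fun g h hgh => hx g h (S.rel_fuse hm hgh), fun t i => ?_⟩
    exact (hx (r i) (r ((t : ZMod m) * i)) ⟨t, i, S.refl _, S.refl _⟩).symm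
  · rintro ⟨h1, h2⟩ g h ⟨t, i, hg, hh⟩
    rw [h1 _ _ hg, ← h1 _ _ hh, h2]

/-- Fixed points of Frobenius: for Γ-invariant class functions `x^q ≡ x`. -/
lemma rho_pow_fix (hm : 2 ≤ m) {x : Alg ℤ m} (hx : CF S.rel x)
    (hinv : ∀ (t : (ZMod m)ˣ) (i : ZMod m), x.coeff (r ((t : ZMod m) * i)) = x.coeff (r i))
    (q : ℕ) [Fact q.Prime] (hodd : q ≠ 2) (t : (ZMod m)ˣ)
    (hq : (q : ZMod m) = ((t⁻¹ : (ZMod m)ˣ) : ZMod m)) :
    (rho q x) ^ q = rho q x := by
  rw [← map_pow]
  apply ext_coeff
  have hrot : ∀ j, (rho q (x ^ q)).coeff (r j) = (rho q x).coeff (r j) := by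
    intro j
    simp only [coeff_rho]
    rw [S.pow_coeff_unit q hodd t hq hx j, hinv]
  rintro (j | k)
  · exact hrot j
  · obtain ⟨j, hj⟩ := S.exists_rot hm (g := sr k) (by rintro ⟨⟩)
    have h1 := hrot j
    simp only [coeff_rho] at h1 ⊢
    rw [S.cf_pow hx q _ _ hj, hx _ _ hj, h1]

/-- The fused scheme. -/
def fuse (hm : 2 ≤ m) : Scheme m where
  rel := S.fuseRel
  refl g := S.rel_fuse hm (S.refl g)
  symm := by
    rintro g h ⟨t, i, hg, hh⟩
    refine ⟨t⁻¹, (t : ZMod m) * i, S.symm hh, ?_⟩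
    have : ((t⁻¹ : (ZMod m)ˣ) : ZMod m) * ((t : ZMod m) * i) = i := by
      rw [← mul_assoc, Units.inv_mul, one_mul]
    rw [this]
    exact S.symm hg
  trans := by
    rintro g h k ⟨t, i, hg, hh⟩ ⟨t', i', hh', hk⟩
    refine ⟨t' * t, i, hg, ?_⟩
    have h1 : S.rel (r ((t : ZMod m) * i)) (r i') := S.trans hh hh'
    have h2 := S.mult t' h1
    have : (((t' * t : (ZMod m)ˣ) : ZMod m)) * i = (t' : ZMod m) * ((t : ZMod m) * i) := by
      rw [Units.val_mul, mul_assoc]
    rw [this]
    exact S.trans h2 hk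
  one := by
    rintro g ⟨t, i, hg, hh⟩
    have h1 : (r ((t : ZMod m) * i) : DihedralGroup m) = 1 := S.one hh
    have h2 : (t : ZMod m) * i = 0 := by
      rw [one_def] at h1
      exact r.inj h1
    have h3 : i = 0 := by
      have := congrArg (fun z => ((t⁻¹ : (ZMod m)ˣ) : ZMod m) * z) h2
      simpa [← mul_assoc] using this
    subst h3
    exact S.one hg
  inv := by
    rintro g h ⟨t, i, hg, hh⟩
    exact ⟨t, i, S.trans (S.symm (S.rel_inv_self g)) hg, S.trans hh (S.rel_inv_self h)⟩
  mul := by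
    intro x y hx hy
    rw [S.cf_fuse_iff hm] at hx hy ⊢
    obtain ⟨hx1, hx2⟩ := hx
    obtain ⟨hy1, hy2⟩ := hy
    have hf : CF S.rel (x * y) := S.mul _ _ hx1 hy1
    refine ⟨hf, fun t i => ?_⟩
    set d : ℤ := (x * y).coeff (r ((t : ZMod m) * i)) - (x * y).coeff (r i) with hd
    obtain ⟨q, hq2, hqp, hqt⟩ := exists_prime_unit (t⁻¹) (2 + d.natAbs)
    have : Fact q.Prime := ⟨hqp⟩
    have hodd : q ≠ 2 := by omega
    have h1 := S.rho_pow_fix hm hx1 hx2 q hodd t hqt
    have h2 := S.rho_pow_fix hm hy1 hy2 q hodd t hqt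
    have hcomm : Commute (rho q x) (rho q y) := by
      show _ * _ = _ * _
      rw [← map_mul, ← map_mul, S.comm hx1 hy1]
    have h3 : (rho q (x * y)) ^ q = rho q (x * y) := by
      rw [map_mul, hcomm.mul_pow, h1, h2]
    have h4 := congrArg (fun z => MonoidAlgebra.coeff z (r i)) h3
    rw [← map_pow] at h4
    simp only [coeff_rho] at h4
    rw [S.pow_coeff_unit q hodd t hqt hf i] at h4
    have h5 : ((d : ℤ) : ZMod q) = 0 := by
      rw [hd]; push_cast; rw [h4]; ring
    have h6 : (q : ℤ) ∣ d := (ZMod.intCast_zmod_eq_zero_iff_dvd d q).1 h5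
    have h7 : d = 0 := by
      apply Int.eq_zero_of_abs_lt_dvd h6
      have : |d| = d.natAbs := Int.abs_eq_natAbs d
      rw [this]
      have : d.natAbs < q := by omega
      exact_mod_cast this
    linarith
  prim := by
    intro K hK
    apply S.prim K
    intro g h hgh hg
    exact hK g h (S.rel_fuse hm hgh) hg

lemma fuse_rel (hm : 2 ≤ m) : (S.fuse hm).rel = S.fuseRel := rfl

/-- The fused scheme is rational. -/
lemma fuse_rational (hm : 2 ≤ m) {i j : ZMod m} (h : addOrderOf i = addOrderOf j) :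
    (S.fuse hm).rel (r i) (r j) := by
  obtain ⟨t, ht⟩ := exists_unit_of_addOrderOf_eq h
  exact ⟨t, i, S.refl _, by rw [ht]; exact S.refl _⟩

/-- augmentation -/
def aug {R : Type} [CommRing R] (y : Alg R m) : R := ∑ g, y.coeff g

lemma aug_mul {R : Type} [CommRing R] (x y : Alg R m) : aug (x * y) = aug x * aug y := by
  unfold aug
  simp only [coeff_mul_eq]
  rw [Finset.sum_comm, Finset.sum_mul]
  apply Finset.sum_congr rfl
  intro u _
  rw [← Finset.mul_sum]
  congr 1
  exact Fintype.sum_equiv (Equiv.mulLeft u⁻¹) _ _ (fun g => rfl)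

lemma aug_one {R : Type} [CommRing R] : aug (1 : Alg R m) = 1 := by
  classical
  unfold aug
  simp only [coeff_one_eq]
  simp

lemma aug_pow {R : Type} [CommRing R] (x : Alg R m) (n : ℕ) : aug (x ^ n) = aug x ^ n := by
  induction n with
  | zero => simp [aug_one]
  | succ n ih => rw [pow_succ, aug_mul, ih, pow_succ]

open Classical in
/-- If two classes are conjugate under a multiplier, they have the same size. -/
lemma card_class_eq (hm : 2 ≤ m) {g h : DihedralGroup m} (t : (ZMod m)ˣ) (i : ZMod m)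
    (hg : S.rel g (r i)) (hh : S.rel (r ((t : ZMod m) * i)) h) :
    (Finset.univ.filter fun u => S.rel g u).card = (Finset.univ.filter fun u => S.rel h u).card := by
  classical
  have hbd : (Finset.univ.filter fun u => S.rel g u).card ≤ 2 * m :=
    (Finset.card_filter_le _ _).trans (by rw [Finset.card_univ, DihedralGroup.card])
  have hbd' : (Finset.univ.filter fun u => S.rel h u).card ≤ 2 * m :=
    (Finset.card_filter_le _ _).trans (by rw [Finset.card_univ, DihedralGroup.card])
  obtain ⟨q, hq2, hqp, hqt⟩ := exists_prime_unit t (2 + 2 * m)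
  have : Fact q.Prime := ⟨hqp⟩
  have hodd : q ≠ 2 := by omega
  have hqt' : (q : ZMod m) = (((t⁻¹)⁻¹ : (ZMod m)ˣ) : ZMod m) := by simpa using hqt
  set x := ind {u | S.rel g u} with hx
  set y := ind {u | S.rel h u} with hy
  have hxc : CF S.rel x := S.cf_ind (S.closed_class g)
  have hyc : CF S.rel y := S.cf_ind (S.closed_class h)
  -- x^q ≡ y
  have hrot : ∀ j, (rho q (x ^ q)).coeff (r j) = (rho q y).coeff (r j) := by
    intro j
    simp only [coeff_rho]
    rw [S.pow_coeff_unit q hodd t⁻¹ hqt' hxc j]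
    congr 1
    by_cases hj : S.rel h (r j)
    · rw [hy, coeff_ind_of_mem (X := {u | S.rel h u}) hj]
      apply coeff_ind_of_mem (X := {u | S.rel g u})
      have h1 : S.rel (r ((t : ZMod m) * i)) (r j) := S.trans hh hj
      have h2 := S.mult t⁻¹ h1
      have h3 : ((t⁻¹ : (ZMod m)ˣ) : ZMod m) * ((t : ZMod m) * i) = i := by
        rw [← mul_assoc, Units.inv_mul, one_mul]
      rw [h3] at h2
      exact S.trans hg h2
    · rw [hy, coeff_ind_of_not_mem (X := {u | S.rel h u}) hj]
      apply coeff_ind_of_not_mem (X := {u | S.rel g u})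
      intro hc
      apply hj
      have h1 : S.rel (r i) (r (((t⁻¹ : (ZMod m)ˣ) : ZMod m) * j)) := S.trans (S.symm hg) hc
      have h2 := S.mult t h1
      have h3 : (t : ZMod m) * (((t⁻¹ : (ZMod m)ˣ) : ZMod m) * j) = j := by
        rw [← mul_assoc, Units.mul_inv, one_mul]
      rw [h3] at h2
      exact S.trans (S.symm hh) h2
  have hall : rho q (x ^ q) = rho q y := by
    apply ext_coeff
    rintro (j | k)
    · exact hrot j
    · obtain ⟨j, hj⟩ := S.exists_rot hm (g := sr k) (by rintro ⟨⟩)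
      have h1 := hrot j
      simp only [coeff_rho] at h1 ⊢
      rw [S.cf_pow hxc q _ _ hj, hyc _ _ hj, h1]
  have haug : aug (rho q (x ^ q)) = aug (rho q y) := by rw [hall]
  rw [map_pow, aug_pow] at haug
  have haug1 : aug (rho q x) = (((Finset.univ.filter fun u => S.rel g u).card : ℕ) : ZMod q) := by
    unfold aug
    simp only [coeff_rho]
    rw [Finset.card_filter]
    push_cast
    apply Finset.sum_congr rfl
    intro u _
    by_cases hu : S.rel g u
    · rw [hx, coeff_ind_of_mem (X := {u | S.rel g u}) hu]; simp [hu]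
    · rw [hx, coeff_ind_of_not_mem (X := {u | S.rel g u}) hu]; simp [hu]
  have haug2 : aug (rho q y) = (((Finset.univ.filter fun u => S.rel h u).card : ℕ) : ZMod q) := by
    unfold aug
    simp only [coeff_rho]
    rw [Finset.card_filter]
    push_cast
    apply Finset.sum_congr rfl
    intro u _
    by_cases hu : S.rel h u
    · rw [hy, coeff_ind_of_mem (X := {u | S.rel h u}) hu]; simp [hu]
    · rw [hy, coeff_ind_of_not_mem (X := {u | S.rel h u}) hu]; simp [hu]
  rw [haug1, haug2, ZMod.pow_card] at haug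
  have hmod := (ZMod.natCast_eq_natCast_iff' _ _ _).1 haug
  rw [Nat.mod_eq_of_lt (by omega), Nat.mod_eq_of_lt (by omega)] at hmod
  exact hmod

/-- If the fused scheme is trivial then so is the original scheme. -/
lemma trivial_of_fuse (hm : 2 ≤ m)
    (hf : ∀ g h : DihedralGroup m, g ≠ 1 → h ≠ 1 → S.fuseRel g h) :
    ∀ g h : DihedralGroup m, g ≠ 1 → h ≠ 1 → S.rel g h := by
  classical
  -- quotient
  let s : Setoid (DihedralGroup m) := ⟨S.rel, S.refl, S.symm, S.trans⟩
  let c : DihedralGroup m → Quotient s := fun g => Quotient.mk s g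
  have hc : ∀ g h, c g = c h ↔ S.rel g h := fun g h => Quotient.eq (r := s)
  set s0 : Finset (DihedralGroup m) := Finset.univ.filter (· ≠ 1) with hs0
  set t0 : Finset (Quotient s) := s0.image c with ht0
  -- fibres over t0
  obtain ⟨g0, hg0⟩ : ∃ g0 : DihedralGroup m, g0 ≠ 1 := ⟨sr 0, by rintro ⟨⟩⟩
  set κ := (Finset.univ.filter fun u => S.rel g0 u).card with hκ
  set α := (Finset.univ.filter fun i : ZMod m => S.rel g0 (r i)).card with hα
  have hfib1 : ∀ b ∈ t0, (s0.filter fun g => c g = b).card = κ := by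
    intro b hb
    obtain ⟨g, hg, rfl⟩ := Finset.mem_image.1 hb
    have hg1 : g ≠ 1 := (Finset.mem_filter.1 hg).2
    obtain ⟨t, i, h1, h2⟩ := hf g0 g hg0 hg1
    rw [hκ, S.card_class_eq hm t i h1 h2]
    apply congrArg
    ext u
    simp only [Finset.mem_filter, Finset.mem_univ, true_and, hs0]
    constructor
    · rintro ⟨-, hu⟩
      exact (hc g u).1 hu.symm
    · intro hu
      refine ⟨?_, ((hc g u).2 hu).symm⟩
      rintro rfl
      exact hg1 (S.one hu)
  have hfib2 : ∀ b ∈ t0, ((Finset.univ.filter fun i : ZMod m => i ≠ 0).filter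
      fun i => c (r i) = b).card = α := by
    intro b hb
    obtain ⟨g, hg, rfl⟩ := Finset.mem_image.1 hb
    have hg1 : g ≠ 1 := (Finset.mem_filter.1 hg).2
    obtain ⟨t, i, h1, h2⟩ := hf g0 g hg0 hg1
    rw [hα]
    symm
    apply Finset.card_bij (fun i' _ => (t : ZMod m) * i')
    · intro i' hi'
      simp only [Finset.mem_filter, Finset.mem_univ, true_and] at hi' ⊢
      have h3 : S.rel (r i) (r i') := S.trans (S.symm h1) hi'
      have h4 := S.mult t h3
      have h5 : S.rel g (r ((t : ZMod m) * i')) := S.trans (S.symm h2) h4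
      refine ⟨?_, (hc _ _).2 (S.symm h5)⟩
      intro h0
      rw [h0] at h5
      exact hg1 (S.one h5)
    · intro a _ b' _ hab
      exact (Units.mul_right_inj t).1 hab
    · intro i' hi'
      simp only [Finset.mem_filter, Finset.mem_univ, true_and] at hi'
      have h3 : S.rel g (r i') := S.symm ((hc _ _).1 hi'.2)
      refine ⟨((t⁻¹ : (ZMod m)ˣ) : ZMod m) * i', ?_, ?_⟩
      · simp only [Finset.mem_filter, Finset.mem_univ, true_and]
        have h4 : S.rel (r ((t : ZMod m) * i)) (r i') := S.trans h2 h3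
        have h5 := S.mult t⁻¹ h4
        have h6 : ((t⁻¹ : (ZMod m)ˣ) : ZMod m) * ((t : ZMod m) * i) = i := by
          rw [← mul_assoc, Units.inv_mul, one_mul]
        rw [h6] at h5
        exact S.trans h1 h5
      · rw [← mul_assoc, Units.mul_inv, one_mul]
  have hcard1 : s0.card = t0.card * κ := by
    rw [Finset.card_eq_sum_card_fiberwise (f := c) (t := t0)
      (fun g hg => Finset.mem_coe.2 (Finset.mem_image_of_mem c (Finset.mem_coe.1 hg)))]
    rw [Finset.sum_congr rfl hfib1]
    simp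
  have hcard2 : (Finset.univ.filter fun i : ZMod m => i ≠ 0).card = t0.card * α := by
    rw [Finset.card_eq_sum_card_fiberwise (f := fun i => c (r i)) (t := t0)]
    · rw [Finset.sum_congr rfl hfib2]
      simp
    · intro i hi
      apply Finset.mem_coe.2
      apply Finset.mem_image_of_mem c
      simp only [hs0, Finset.mem_filter, Finset.mem_univ, true_and]
      intro h
      rw [one_def] at h
      have := r.inj h
      exact (Finset.mem_filter.1 (Finset.mem_coe.1 hi)).2 this
  have hs0c : s0.card = 2 * m - 1 := by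
    rw [hs0, Finset.filter_ne', Finset.card_erase_of_mem (Finset.mem_univ _), Finset.card_univ,
      DihedralGroup.card]
  have hs1c : (Finset.univ.filter fun i : ZMod m => i ≠ 0).card = m - 1 := by
    rw [Finset.filter_ne', Finset.card_erase_of_mem (Finset.mem_univ _), Finset.card_univ,
      ZMod.card]
  have h1 : t0.card ∣ 2 * m - 1 := ⟨κ, by rw [← hs0c, hcard1]⟩
  have h2 : t0.card ∣ m - 1 := ⟨α, by rw [← hs1c, hcard2]⟩
  have h3 : t0.card ∣ 1 := by
    have h4 : t0.card ∣ 2 * (m - 1) := Dvd.dvd.mul_left h2 2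
    have h5 : 2 * m - 1 = 2 * (m - 1) + 1 := by omega
    rw [h5] at h1
    exact (Nat.dvd_add_right h4).1 h1
  have h4 : t0.card = 1 := Nat.dvd_one.1 h3
  intro g h hg hh
  obtain ⟨b, hb⟩ := Finset.card_eq_one.1 h4
  have hg' : c g ∈ t0 := Finset.mem_image_of_mem c (by simp [hs0, hg])
  have hh' : c h ∈ t0 := Finset.mem_image_of_mem c (by simp [hs0, hh])
  rw [hb, Finset.mem_singleton] at hg' hh'
  exact (hc g h).1 (hg'.trans hh'.symm)

end Scheme

end

end Cfsg.Agent.Lib.DihS
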