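import Mathlib
import Cfsg.Agent.Lib.DihS2

/-!
Dihedral schemes: arithmetic in `ZMod m` around the subgroup of order `p`.
-/

namespace Cfsg.Agent.Lib.DihS

open DihedralGroup

noncomputable section

variable {m : ℕ} [NeZero m]

/-- Periodic sums, general form. -/
lemma sum_periodic {M : Type} [AddCommMonoid M] {d e : ℕ} (hm : m = d * e)
    (f : ZMod m → M) (hf : ∀ i, f (i + (d : ZMod m)) = f i) :
    ∑ i, f i = e • ∑ n ∈ Finset.range d, f (n : ZMod m) := by
  subst hm
  exact sum_zmod_periodic d e f hf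

/-- The canonical element of order `p`. -/
def wp (m p : ℕ) : ZMod m := ((m / p : ℕ) : ZMod m)

section wp
variable {p : ℕ} [hp : Fact p.Prime]

lemma wp_mul (hpm : p ∣ m) : wp m p * (p : ZMod m) = 0 := by
  unfold wp
  rw [← Nat.cast_mul, Nat.div_mul_cancel hpm]
  exact ZMod.natCast_self m

lemma wp_nsmul (hpm : p ∣ m) : p • wp m p = 0 := by
  rw [nsmul_eq_mul, mul_comm, wp_mul hpm]

lemma wp_ne_zero (hpm : p ∣ m) : wp m p ≠ 0 := by
  unfold wp
  intro h
  rw [ZMod.natCast_eq_zero_iff] at h
  have hm : 0 < m := Nat.pos_of_ne_zero (NeZero.ne m)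
  have h1 : m / p < m := Nat.div_lt_self hm hp.out.one_lt
  have h2 : 0 < m / p := Nat.div_pos (Nat.le_of_dvd hm hpm) hp.out.pos
  exact absurd (Nat.le_of_dvd h2 h) (by omega)

lemma addOrderOf_wp (hpm : p ∣ m) : addOrderOf (wp m p) = p :=
  addOrderOf_eq_prime (wp_nsmul hpm) (wp_ne_zero hpm)

lemma exists_of_mul_p (hpm : p ∣ m) {c : ZMod m} (hc : c * (p : ZMod m) = 0) :
    ∃ l, l < p ∧ c = l • wp m p := by
  obtain ⟨d, hd⟩ := hpm
  have hm : 0 < m := Nat.pos_of_ne_zero (NeZero.ne m)
  have hcv : (c.val : ZMod m) = c := ZMod.natCast_zmod_val c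
  have h1 : m ∣ c.val * p := by
    rw [← ZMod.natCast_eq_zero_iff]
    push_cast
    rw [hcv, hc]
  obtain ⟨k, hk⟩ := h1
  have hk2 : c.val * p = p * (d * k) := by
    calc c.val * p = m * k := hk
      _ = p * d * k := by rw [← hd]
      _ = p * (d * k) := by ring
  have hl : c.val = d * k := by
    have : p * c.val = p * (d * k) := by rw [mul_comm]; exact hk2
    exact Nat.eq_of_mul_eq_mul_left hp.out.pos this
  refine ⟨k, ?_, ?_⟩
  · have hlt : c.val < m := ZMod.val_lt c
    have h3 : d * k < p * d := by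
      rw [← hl, ← hd]; exact hlt
    rw [mul_comm p d] at h3
    exact Nat.lt_of_mul_lt_mul_left h3
  · have hdiv : m / p = d := by
      have : m / p = (p * d) / p := by rw [← hd]
      rw [this]
      exact Nat.mul_div_cancel_left _ hp.out.pos
    have hw : wp m p = (d : ZMod m) := by
      unfold wp
      rw [hdiv]
    rw [hw, nsmul_eq_mul, ← hcv, hl]
    push_cast
    ring

/-- Sum over a fibre of multiplication by `p`. -/
lemma fiber_sum {M : Type} [AddCommMonoid M] (hpm : p ∣ m) (f : ZMod m → M) (i₀ : ZMod m) :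
    (∑ i, if i * (p : ZMod m) = i₀ * (p : ZMod m) then f i else 0)
      = ∑ l ∈ Finset.range p, f (i₀ + l • wp m p) := by
  classical
  rw [← Finset.sum_filter]
  symm
  refine Finset.sum_bij (fun l _ => i₀ + l • wp m p) ?_ ?_ ?_ ?_
  · intro l _
    simp only [Finset.mem_filter, Finset.mem_univ, true_and]
    rw [add_mul, nsmul_eq_mul, mul_assoc, wp_mul hpm, mul_zero, add_zero]
  · intro l hl l' hl' h
    have h1 : l • wp m p = l' • wp m p := add_left_cancel h
    rw [nsmul_eq_nsmul_iff_modEq, addOrderOf_wp hpm] at h1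
    exact Nat.ModEq.eq_of_lt_of_lt h1 (Finset.mem_range.1 hl) (Finset.mem_range.1 hl')
  · intro i hi
    simp only [Finset.mem_filter, Finset.mem_univ, true_and] at hi
    have h1 : (i - i₀) * (p : ZMod m) = 0 := by rw [sub_mul, hi, sub_self]
    obtain ⟨l, hl, hl2⟩ := exists_of_mul_p hpm h1
    refine ⟨l, Finset.mem_range.2 hl, ?_⟩
    rw [← hl2]; ring
  · intro l _
    rfl

lemma addOrderOf_add_of_sq_dvd {i y : ZMod m} (hy : p • y = 0)
    (hi : p * p ∣ addOrderOf i) : addOrderOf (i + y) = addOrderOf i := by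
  have key : ∀ N : ℕ, N • (i + y) = 0 ↔ N • i = 0 := by
    intro N
    have hdiv : ∀ N : ℕ, p ∣ N → N • y = 0 := by
      rintro N ⟨c, rfl⟩
      rw [mul_nsmul, hy, nsmul_zero]
    constructor
    · intro h
      rw [nsmul_add] at h
      have h1 : (p * N) • i = 0 := by
        have : N • i = - (N • y) := eq_neg_of_add_eq_zero_left h
        rw [mul_nsmul', this, smul_neg, ← mul_nsmul', mul_nsmul, hy, nsmul_zero, neg_zero]
      have h2 : addOrderOf i ∣ p * N := addOrderOf_dvd_of_nsmul_eq_zero h1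
      have h3 : p * p ∣ p * N := hi.trans h2
      have h4 : p ∣ N := Nat.dvd_of_mul_dvd_mul_left hp.out.pos h3
      rw [hdiv N h4, add_zero] at h
      exact h
    · intro h
      have h2 : addOrderOf i ∣ N := addOrderOf_dvd_of_nsmul_eq_zero h
      have h4 : p ∣ N := (Dvd.intro _ rfl).trans (hi.trans h2)
      rw [nsmul_add, h, hdiv N h4, add_zero]
  apply Nat.dvd_antisymm
  · apply addOrderOf_dvd_of_nsmul_eq_zero
    rw [key]
    exact addOrderOf_nsmul_eq_zero i
  · apply addOrderOf_dvd_of_nsmul_eq_zero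
    rw [← key]
    exact addOrderOf_nsmul_eq_zero _

lemma addOrderOf_add_of_not_dvd (hpm : p ∣ m) {i : ZMod m} (hi : ¬ p ∣ addOrderOf i) {l : ℕ}
    (hl : l • wp m p ≠ 0) : addOrderOf (i + l • wp m p) = addOrderOf i * p := by
  have h1 : addOrderOf (l • wp m p) = p := by
    apply addOrderOf_eq_prime _ hl
    rw [smul_comm, wp_nsmul hpm, nsmul_zero]
  have hco : (addOrderOf i).Coprime (addOrderOf (l • wp m p)) := by
    rw [h1]
    exact ((Nat.Prime.coprime_iff_not_dvd hp.out).2 hi).symm
  have := (AddCommute.all i (l • wp m p)).addOrderOf_add_eq_mul_addOrderOf_of_coprime hco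
  rw [this, h1]

/-- Decomposition of an element with `p² ∤ ord`. -/
lemma exists_decomp (hpm : p ∣ m) {i : ZMod m} (hi : ¬ p * p ∣ addOrderOf i) :
    ∃ i₁, ¬ p ∣ addOrderOf i₁ ∧ ∃ l : ℕ, i = i₁ + l • wp m p := by
  by_cases hp1 : p ∣ addOrderOf i
  · obtain ⟨δ, hδ⟩ := hp1
    have hco : Nat.Coprime δ p := by
      rw [Nat.coprime_comm, Nat.Prime.coprime_iff_not_dvd hp.out]
      rintro ⟨c, rfl⟩
      apply hi
      rw [hδ]
      exact ⟨c, by ring⟩
    obtain ⟨k, hk1, hk2⟩ := Nat.chineseRemainder hco 1 0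
    have hk3 : p ∣ k := (Nat.modEq_zero_iff_dvd).1 hk2
    obtain ⟨u, rfl⟩ := hk3
    have h1 : δ • ((p * u) • i) = 0 := by
      rw [← mul_nsmul]
      have : p * u * δ = u * addOrderOf i := by rw [hδ]; ring
      rw [this, mul_nsmul', addOrderOf_nsmul_eq_zero, nsmul_zero]
    have h2 : addOrderOf ((p * u) • i) ∣ δ := addOrderOf_dvd_of_nsmul_eq_zero h1
    refine ⟨(p * u) • i, fun hc => ?_, ?_⟩
    · have h3 : p ∣ δ := hc.trans h2
      exact (Nat.Prime.coprime_iff_not_dvd hp.out).1 hco.symm h3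
    · have h4 : (i - (p * u) • i) * (p : ZMod m) = 0 := by
        rw [sub_mul]
        have h5 : ((p * u) • i) * (p : ZMod m) = (p * u * p) • i := by
          simp only [nsmul_eq_mul]; push_cast; ring
        have h6 : i * (p : ZMod m) = p • i := by simp [nsmul_eq_mul, mul_comm]
        rw [h5, h6, sub_eq_zero]
        -- `p * u * p ≡ p mod (p δ)`
        have h7 : p * u * p ≡ p * 1 [MOD p * δ] := by
          have := Nat.ModEq.mul_left' p hk1
          rw [show p * (p * u) = p * u * p by ring] at this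
          exact this
        rw [mul_one] at h7
        rw [← hδ] at h7
        exact (nsmul_eq_nsmul_iff_modEq).2 h7.symm
      obtain ⟨l, -, hl⟩ := exists_of_mul_p hpm h4
      exact ⟨l, by rw [← hl]; abel⟩
  · exact ⟨i, hp1, 0, by simp⟩

lemma addOrderOf_mul_p_of_not_dvd {i : ZMod m} (hi : ¬ p ∣ addOrderOf i) :
    addOrderOf (i * (p : ZMod m)) = addOrderOf i := by
  have : i * (p : ZMod m) = p • i := by simp [nsmul_eq_mul, mul_comm]
  rw [this]
  have hco : Nat.Coprime (addOrderOf i) p := by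
    rw [Nat.coprime_comm, Nat.Prime.coprime_iff_not_dvd hp.out]
    exact hi
  have h1 := addOrderOf_nsmul' i hp.out.ne_zero
  rw [h1, hco.gcd_eq_one, Nat.div_one]

lemma sq_dvd_of_mul_p {i : ZMod m} (hj : p ∣ addOrderOf (i * (p : ZMod m))) :
    p * p ∣ addOrderOf i := by
  have h0 : i * (p : ZMod m) = p • i := by simp [nsmul_eq_mul, mul_comm]
  rw [h0] at hj
  by_cases hp1 : p ∣ addOrderOf i
  · obtain ⟨δ, hδ⟩ := hp1
    have h1 : δ • (p • i) = 0 := by
      rw [← mul_nsmul, ← hδ, addOrderOf_nsmul_eq_zero]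
    have h2 : addOrderOf (p • i) ∣ δ := addOrderOf_dvd_of_nsmul_eq_zero h1
    obtain ⟨c, hc⟩ := hj.trans h2
    rw [hδ, hc]
    exact ⟨c, by ring⟩
  · have h1 : addOrderOf (p • i) ∣ addOrderOf i := by
      apply addOrderOf_dvd_of_nsmul_eq_zero
      rw [smul_comm, addOrderOf_nsmul_eq_zero, nsmul_zero]
    exact absurd (hj.trans h1) hp1

end wp

lemma coeff_ind_congr {X : Set (DihedralGroup m)} {g h : DihedralGroup m} (H : g ∈ X ↔ h ∈ X) :
    (ind X).coeff g = (ind X).coeff h := by
  by_cases hg : g ∈ X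
  · rw [coeff_ind_of_mem hg, coeff_ind_of_mem (H.1 hg)]
  · rw [coeff_ind_of_not_mem hg, coeff_ind_of_not_mem (fun h' => hg (H.2 h'))]

lemma coeff_ind_01 (X : Set (DihedralGroup m)) (g : DihedralGroup m) :
    (ind X).coeff g = 0 ∨ (ind X).coeff g = 1 := by
  by_cases hg : g ∈ X
  · right; exact coeff_ind_of_mem hg
  · left; exact coeff_ind_of_not_mem hg

lemma const_of_sum {p : ℕ} (h2 : 2 ≤ p) (f : ℕ → ℤ) (hf : ∀ l, f l = 0 ∨ f l = 1)
    (hdvd : (p : ℤ) ∣ ∑ l ∈ Finset.range p, f l) : f 1 = f 0 := by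
  have hnn : ∀ l, 0 ≤ f l := fun l => by rcases hf l with h | h <;> simp [h]
  have hle : ∀ l, f l ≤ 1 := fun l => by rcases hf l with h | h <;> simp [h]
  have h01 : 0 ∈ Finset.range p := Finset.mem_range.2 (by omega)
  have h11 : 1 ∈ Finset.range p := Finset.mem_range.2 (by omega)
  have hlow : ∀ l ∈ Finset.range p, f l ≤ ∑ l ∈ Finset.range p, f l := fun l hl =>
    Finset.single_le_sum (fun j _ => hnn j) hl
  have hupp : ∀ l ∈ Finset.range p, ∑ j ∈ Finset.range p, f j ≤ (p : ℤ) - 1 + f l := by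
    intro l hl
    have h3 : ∑ j ∈ Finset.range p, (1 - f j) ≥ 1 - f l :=
      Finset.single_le_sum (f := fun j => 1 - f j) (fun j _ => by have := hle j; simp; omega) hl
    rw [Finset.sum_sub_distrib] at h3
    simp at h3
    linarith
  by_contra hne
  have hT : 1 ≤ ∑ l ∈ Finset.range p, f l ∧ ∑ l ∈ Finset.range p, f l ≤ (p : ℤ) - 1 := by
    rcases hf 0 with h0 | h0 <;> rcases hf 1 with h1 | h1
    · exact absurd (h1.trans h0.symm) hne
    · constructor
      · have := hlow 1 h11; omega
      · have := hupp 0 h01; omega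
    · constructor
      · have := hlow 0 h01; omega
      · have := hupp 1 h11; omega
    · exact absurd (h1.trans h0.symm) hne
  obtain ⟨c, hc⟩ := hdvd
  rw [hc] at hT
  have hp : (0 : ℤ) < p := by omega
  have h3 : 0 < c := by
    by_contra h
    push Not at h
    have := mul_nonpos_of_nonneg_of_nonpos hp.le h
    omega
  have h4 : c < 1 := by
    by_contra h
    push Not at h
    have := mul_le_mul_of_nonneg_left h hp.le
    omega
  omega

namespace Scheme

variable (S : Scheme m)

/-- A closed set that is invariant under a nontrivial rotation is empty or everything. -/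
lemma rad {W : Set (DihedralGroup m)} (hW : Closed S.rel W) {w : ZMod m} (hw : w ≠ 0)
    (hr : ∀ i, r (i + w) ∈ W ↔ r i ∈ W) (hs : ∀ k, sr (k + w) ∈ W ↔ sr k ∈ W) :
    W = ∅ ∨ W = Set.univ := by
  classical
  set x := ind W with hx
  have hcf : CF S.rel x := S.cf_ind hW
  let K : Subgroup (DihedralGroup m) :=
    { carrier := {g | ∀ h, g * h ∈ W ↔ h ∈ W}
      mul_mem' := by
        intro g g' hg hg' h
        rw [mul_assoc]
        exact (hg _).trans (hg' _)
      one_mem' := by intro h; simp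
      inv_mem' := by
        intro g hg h
        have := hg (g⁻¹ * h)
        rw [mul_inv_cancel_left] at this
        exact this.symm }
  have hKmem : ∀ g, g ∈ K ↔ ∀ h, g * h ∈ W ↔ h ∈ W := fun g => Iff.rfl
  have hf : CF S.rel (x * x) := S.mul _ _ hcf hcf
  have hx01 : ∀ g, x.coeff g = 0 ∨ x.coeff g = 1 := coeff_ind_01 W
  have hform : ∀ g, (x * x).coeff g = ∑ u, x.coeff u * x.coeff (g⁻¹ * u) := by
    intro g
    rw [coeff_mul_eq]
    refine Finset.sum_congr rfl fun u _ => ?_
    rw [← S.coeff_inv_of_cf hcf (u⁻¹ * g)]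
    simp
  have step : ∀ g g', g ∈ K → S.rel g g' → ∀ u ∈ W, g'⁻¹ * u ∈ W := by
    intro g g' hg hgg' u hu
    have h1 : (x * x).coeff g = ∑ u, x.coeff u * x.coeff u := by
      rw [hform]
      refine Finset.sum_congr rfl fun v _ => ?_
      have : g⁻¹ ∈ K := K.inv_mem hg
      rw [hx, coeff_ind_congr ((hKmem _).1 this v)]
    have h2 : (x * x).coeff g' = ∑ u, x.coeff u * x.coeff u := by
      rw [← h1, hf g g' hgg']
    rw [hform] at h2
    have hle : ∀ v ∈ (Finset.univ : Finset (DihedralGroup m)),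
        x.coeff v * x.coeff (g'⁻¹ * v) ≤ x.coeff v * x.coeff v := by
      intro v _
      rcases hx01 v with h | h <;> rcases hx01 (g'⁻¹ * v) with h' | h' <;> simp [h, h']
    have h3 := (Finset.sum_eq_sum_iff_of_le hle).1 h2 u (Finset.mem_univ u)
    have hxu : x.coeff u = 1 := coeff_ind_of_mem hu
    rw [hxu] at h3
    by_contra hne
    have : x.coeff (g'⁻¹ * u) = 0 := coeff_ind_of_not_mem hne
    rw [this] at h3
    simp at h3
  have hKclosed : Closed S.rel (K : Set (DihedralGroup m)) := by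
    intro g g' hgg' hg
    have hg1 : g ∈ K := hg
    show g' ∈ K
    rw [hKmem]
    intro h
    constructor
    · intro hh
      have := step g g' hg1 hgg' _ hh
      rwa [inv_mul_cancel_left] at this
    · intro hh
      have := step g⁻¹ g'⁻¹ (K.inv_mem hg1) (S.inv hgg') _ hh
      rwa [inv_inv] at this
  have hrw : (r w : DihedralGroup m) ∈ K := by
    rw [hKmem]
    rintro (i | k)
    · rw [r_mul_r, add_comm]
      exact hr i
    · rw [r_mul_sr]
      have := hs (k - w)
      rw [sub_add_cancel] at this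
      exact this.symm
  rcases S.prim K hKclosed with hK | hK
  · exfalso
    rw [hK, Subgroup.mem_bot, one_def] at hrw
    exact hw (r.inj hrw)
  · by_cases hne : W = ∅
    · exact Or.inl hne
    · right
      obtain ⟨g, hg⟩ := Set.nonempty_iff_ne_empty.2 hne
      ext h
      simp only [Set.mem_univ, iff_true]
      have hmem : h * g⁻¹ ∈ K := by rw [hK]; trivial
      have := ((hKmem _).1 hmem g).2 hg
      rwa [inv_mul_cancel_right] at this

section per

variable {p : ℕ} [hp : Fact p.Prime]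

/-- Reduction-mod-`p` fibre lemma. -/
lemma per_fiber (hpm : p ∣ m) {Z : Set (DihedralGroup m)} (hZ : Closed S.rel Z)
    (hs : ∀ k, sr (k + wp m p) ∈ Z ↔ sr k ∈ Z) (i : ZMod m) (hi : i * (p : ZMod m) ≠ 0) :
    r (i + wp m p) ∈ Z ↔ r i ∈ Z := by
  classical
  set w := wp m p with hw
  set x := ind Z with hx
  have hcf : CF S.rel x := S.cf_ind hZ
  set y := rho p x with hy
  have hsym : ∀ i, y.coeff (r (-i)) = y.coeff (r i) := by
    intro i
    simp only [hy, coeff_rho]
    have := S.coeff_inv_of_cf hcf (r i)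
    rw [inv_r] at this
    rw [this]
  have hmd : m = (m / p) * p := (Nat.div_mul_cancel hpm).symm
  have hsq : refPart y * refPart y = 0 := by
    apply ref_sq_zero
    intro j
    have hper : ∀ i, y.coeff (sr (i + ((m / p : ℕ) : ZMod m))) * y.coeff (sr (i + ((m / p : ℕ) : ZMod m) + j))
        = y.coeff (sr i) * y.coeff (sr (i + j)) := by
      intro i
      have h1 : ∀ k, y.coeff (sr (k + w)) = y.coeff (sr k) := by
        intro k
        simp only [hy, coeff_rho]
        rw [hx, coeff_ind_congr (hs k)]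
      have h2 : i + ((m / p : ℕ) : ZMod m) + j = (i + j) + w := by
        rw [hw, wp]; ring
      have h3 : i + ((m / p : ℕ) : ZMod m) = i + w := by
        rw [hw, wp]
      rw [h2, h1, h3, h1]
    rw [sum_periodic hmd (fun i => y.coeff (sr i) * y.coeff (sr (i + j))) hper]
    rw [nsmul_eq_mul]
    simp
  have hpow : y ^ p = rotPart y ^ p := pow_eq_of_ref_sq y hsym hsq
  have hsr : ∀ k, ((x ^ p).coeff (sr k) : ZMod p) = 0 := by
    intro k
    have h1 : (rho p (x ^ p)).coeff (sr k) = 0 := by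
      rw [map_pow, ← hy, hpow, rotPart_pow_sr]
    rw [coeff_rho] at h1
    exact h1
  have hrj : ∀ j, j ≠ (0 : ZMod m) → ((x ^ p).coeff (r j) : ZMod p) = 0 := by
    intro j hj
    obtain ⟨k, hk⟩ := S.exists_refl (g := r j) (by
      intro h
      rw [one_def] at h
      exact hj (r.inj h))
    rw [S.cf_pow hcf p _ _ hk]
    exact hsr k
  have hfib : ((∑ l ∈ Finset.range p, x.coeff (r (i + l • w)) : ℤ) : ZMod p) = 0 := by
    have h1 := hrj (i * (p : ZMod m)) hi
    have h2 : (rho p (x ^ p)).coeff (r (i * (p : ZMod m))) = ((x ^ p).coeff (r (i * (p : ZMod m))) : ZMod p) :=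
      coeff_rho _ _ _
    rw [← h2, map_pow, ← hy, hpow, rotPart_pow_r, fiber_sum hpm] at h1
    rw [← hw] at h1
    rw [← h1]
    simp [hy]
  have hdvd : (p : ℤ) ∣ ∑ l ∈ Finset.range p, x.coeff (r (i + l • w)) :=
    (ZMod.intCast_zmod_eq_zero_iff_dvd _ p).1 hfib
  have h3 := const_of_sum hp.out.two_le (fun l => x.coeff (r (i + l • w)))
    (fun l => coeff_ind_01 Z _) hdvd
  simp only [one_nsmul, zero_nsmul, add_zero] at h3
  constructor
  · intro h
    rw [hx, coeff_ind_of_mem h] at h3
    by_contra hne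
    rw [coeff_ind_of_not_mem hne] at h3
    exact one_ne_zero h3
  · intro h
    rw [hx, coeff_ind_of_mem h] at h3
    by_contra hne
    rw [coeff_ind_of_not_mem hne] at h3
    exact zero_ne_one h3

/-- The main periodicity lemma (for a rational scheme). -/
lemma per (hrat : ∀ i j : ZMod m, addOrderOf i = addOrderOf j → S.rel (r i) (r j))
    (hpm : p ∣ m) {Z : Set (DihedralGroup m)} (hZ : Closed S.rel Z) (h1 : (1 : DihedralGroup m) ∉ Z)
    (hs : ∀ k, sr (k + wp m p) ∈ Z ↔ sr k ∈ Z) : Z = ∅ ∨ Z = {1}ᶜ := by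
  classical
  set w := wp m p with hw
  have hw0 : w ≠ 0 := wp_ne_zero hpm
  have hwp : w * (p : ZMod m) = 0 := wp_mul hpm
  have hker : ∀ c : ZMod m, c * (p : ZMod m) = 0 → c ≠ 0 → S.rel (r c) (r w) := by
    intro c hc hc0
    apply hrat
    rw [addOrderOf_wp hpm]
    apply addOrderOf_eq_prime _ hc0
    rw [nsmul_eq_mul, mul_comm]
    exact hc
  by_cases hwZ : (r w : DihedralGroup m) ∈ Z
  · -- complement
    set Z' : Set (DihedralGroup m) := (Z ∪ {1})ᶜ with hZ'
    have hZ'c : Closed S.rel Z' := S.closed_compl (S.closed_union hZ S.closed_one)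
    have hmem : ∀ g, g ≠ 1 → (g ∈ Z' ↔ g ∉ Z) := by
      intro g hg
      simp [hZ', hg]
    have hnot1 : (1 : DihedralGroup m) ∉ Z' := by simp [hZ']
    have hker' : ∀ c : ZMod m, c * (p : ZMod m) = 0 → (r c : DihedralGroup m) ∉ Z' := by
      intro c hc
      by_cases hc0 : c = 0
      · subst hc0
        rw [← one_def]
        exact hnot1
      · have h2 : (r c : DihedralGroup m) ≠ 1 := by
          intro h
          rw [one_def] at h
          exact hc0 (r.inj h)
        rw [hmem _ h2]
        intro hh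
        exact hh (hZ _ _ (S.symm (hker c hc hc0)) hwZ)
    have hr : ∀ i, r (i + w) ∈ Z' ↔ r i ∈ Z' := by
      intro i
      by_cases hi : i * (p : ZMod m) = 0
      · have h2 : (i + w) * (p : ZMod m) = 0 := by rw [add_mul, hi, hwp, add_zero]
        exact iff_of_false (hker' _ h2) (hker' _ hi)
      · have hi0 : (r i : DihedralGroup m) ≠ 1 := by
          intro h
          rw [one_def] at h
          rw [r.inj h, zero_mul] at hi
          exact hi rfl
        have hi1 : (r (i + w) : DihedralGroup m) ≠ 1 := by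
          intro h
          rw [one_def] at h
          have h3 := r.inj h
          apply hi
          have : (i + w) * (p : ZMod m) = 0 := by rw [h3, zero_mul]
          rwa [add_mul, hwp, add_zero] at this
        rw [hmem _ hi0, hmem _ hi1, not_iff_not]
        exact S.per_fiber hpm hZ hs i hi
    have hs' : ∀ k, sr (k + w) ∈ Z' ↔ sr k ∈ Z' := by
      intro k
      rw [hmem _ (by rintro ⟨⟩), hmem _ (by rintro ⟨⟩), not_iff_not]
      exact hs k
    rcases S.rad hZ'c hw0 hr hs' with h | h
    · right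
      ext g
      simp only [Set.mem_compl_iff, Set.mem_singleton_iff]
      constructor
      · intro hg hg1
        exact h1 (hg1 ▸ hg)
      · intro hg
        by_contra hne
        have : g ∈ Z' := (hmem g hg).2 hne
        rw [h] at this
        exact this
    · exfalso
      apply hnot1
      rw [h]
      trivial
  · have hker' : ∀ c : ZMod m, c * (p : ZMod m) = 0 → (r c : DihedralGroup m) ∉ Z := by
      intro c hc
      by_cases hc0 : c = 0
      · subst hc0
        rw [← one_def]
        exact h1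
      · intro hh
        exact hwZ (hZ _ _ (hker c hc hc0) hh)
    have hr : ∀ i, r (i + w) ∈ Z ↔ r i ∈ Z := by
      intro i
      by_cases hi : i * (p : ZMod m) = 0
      · have h2 : (i + w) * (p : ZMod m) = 0 := by rw [add_mul, hi, hwp, add_zero]
        exact iff_of_false (hker' _ h2) (hker' _ hi)
      · exact S.per_fiber hpm hZ hs i hi
    rcases S.rad hZ hw0 hr hs with h | h
    · exact Or.inl h
    · exfalso
      apply h1
      rw [h]
      trivial

/-- If the rotation part is periodic then the square is constant away from `1`. -/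
lemma caseA (hrat : ∀ i j : ZMod m, addOrderOf i = addOrderOf j → S.rel (r i) (r j))
    (hpm : p ∣ m) {U : Set (DihedralGroup m)} (hU : Closed S.rel U)
    (ha : ∀ i, r (i + wp m p) ∈ U ↔ r i ∈ U) :
    ∃ lam : ℤ, ∀ g : DihedralGroup m, g ≠ 1 → (ind U * ind U).coeff g = lam := by
  classical
  set w := wp m p with hw
  set x := ind U with hx
  have hcf : CF S.rel x := S.cf_ind hU
  have hf : CF S.rel (x * x) := S.mul _ _ hcf hcf
  have hxa : ∀ i, x.coeff (r (i + w)) = x.coeff (r i) := fun i => coeff_ind_congr (ha i)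
  have hper : ∀ k, (x * x).coeff (sr (k + w)) = (x * x).coeff (sr k) := by
    intro k
    rw [mul_sr, mul_sr]
    congr 1
    · refine Fintype.sum_equiv (Equiv.addRight w) _ _ ?_
      intro i
      simp only [Equiv.coe_addRight]
      rw [hxa]
      congr 2
      ring
    · refine Finset.sum_congr rfl fun i _ => ?_
      rw [show k + w - i = (k - i) + w by ring, hxa]
  set Z : Set (DihedralGroup m) := {g | g ≠ 1} ∩ {g | (x * x).coeff g = (x * x).coeff (sr 0)} with hZ
  have hZc : Closed S.rel Z := by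
    apply S.closed_inter
    · have := S.closed_compl S.closed_one
      convert this using 1
      ext g
      simp
    · exact S.closed_level hf (fun z => z = (x * x).coeff (sr 0))
  have h1 : (1 : DihedralGroup m) ∉ Z := by
    intro h
    exact h.1 rfl
  have hs : ∀ k, sr (k + w) ∈ Z ↔ sr k ∈ Z := by
    intro k
    simp only [hZ, Set.mem_inter_iff, Set.mem_ofPred_eq, hper]
    constructor
    · rintro ⟨-, h⟩
      exact ⟨by rintro ⟨⟩, h⟩
    · rintro ⟨-, h⟩
      exact ⟨by rintro ⟨⟩, h⟩
  have hs0 : (sr 0 : DihedralGroup m) ∈ Z := ⟨by rintro ⟨⟩, rfl⟩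
  rcases S.per hrat hpm hZc h1 hs with h | h
  · rw [h] at hs0
    exact absurd hs0 (Set.notMem_empty _)
  · refine ⟨(x * x).coeff (sr 0), fun g hg => ?_⟩
    have : g ∈ Z := by rw [h]; exact hg
    exact this.2

end per

end Scheme

/-- Difference set data on the two cosets. -/
structure DS (a b : ZMod m → ℤ) (lam : ℤ) : Prop where
  a01 : ∀ i, a i = 0 ∨ a i = 1
  b01 : ∀ i, b i = 0 ∨ b i = 1
  asym : ∀ i, a (-i) = a i
  h1 : ∀ k, ∑ i, a i * b (k + i) + ∑ i, b i * a (k - i) = lam
  h2 : ∀ j, j ≠ 0 → ∑ i, a i * a (j - i) + ∑ i, b i * b (i + j) = lam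

namespace DS

variable {a b : ZMod m → ℤ} {lam : ℤ} (D : DS a b lam)
include D

lemma a_sq (i : ZMod m) : a i * a i = a i := by
  rcases D.a01 i with h | h <;> simp [h]

lemma b_sq (i : ZMod m) : b i * b i = b i := by
  rcases D.b01 i with h | h <;> simp [h]

lemma a_nonneg (i : ZMod m) : 0 ≤ a i := by
  rcases D.a01 i with h | h <;> simp [h]

lemma b_nonneg (i : ZMod m) : 0 ≤ b i := by
  rcases D.b01 i with h | h <;> simp [h]

lemma a_le (i : ZMod m) : a i ≤ 1 := by
  rcases D.a01 i with h | h <;> simp [h]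

lemma b_le (i : ZMod m) : b i ≤ 1 := by
  rcases D.b01 i with h | h <;> simp [h]

lemma h1' (k : ZMod m) : 2 * ∑ i, a i * b (k + i) = lam := by
  have h := D.h1 k
  have h2 : ∑ i, b i * a (k - i) = ∑ i, a i * b (k + i) := by
    symm
    refine Fintype.sum_equiv (Equiv.addLeft k) _ _ ?_
    intro i
    simp only [Equiv.coe_addLeft]
    rw [show k - (k + i) = -i by ring, D.asym, mul_comm]
  rw [h2] at h
  linarith

omit D in
lemma sum_add_const (f : ZMod m → ℤ) (c : ZMod m) : ∑ i, f (i + c) = ∑ i, f i :=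
  Fintype.sum_equiv (Equiv.addRight c) _ _ (fun _ => rfl)

omit D in
lemma sum_const_add (f : ZMod m → ℤ) (c : ZMod m) : ∑ i, f (c + i) = ∑ i, f i :=
  Fintype.sum_equiv (Equiv.addLeft c) _ _ (fun _ => rfl)

omit D in
lemma sum_const_sub (f : ZMod m → ℤ) (c : ZMod m) : ∑ i, f (c - i) = ∑ i, f i :=
  Fintype.sum_equiv (Equiv.subLeft c) _ _ (fun _ => rfl)

omit D in
lemma sum_card (z : ℤ) : ∑ _i : ZMod m, z = (m : ℤ) * z := by
  simp [ZMod.card]

lemma mul_eq : 2 * (∑ i, a i) * (∑ i, b i) = (m : ℤ) * lam := by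
  have h : ∑ k : ZMod m, (2 * ∑ i, a i * b (k + i)) = ∑ _k : ZMod m, lam :=
    Finset.sum_congr rfl fun k _ => D.h1' k
  rw [sum_card, ← Finset.mul_sum, Finset.sum_comm] at h
  have h2 : ∑ i, ∑ k, a i * b (k + i) = (∑ i, a i) * (∑ i, b i) := by
    rw [Finset.sum_mul]
    refine Finset.sum_congr rfl fun i _ => ?_
    rw [← Finset.mul_sum, sum_add_const b i]
  rw [h2] at h
  linarith

lemma sq_eq : (∑ i, a i) ^ 2 + (∑ i, b i) ^ 2
    = (∑ i, a i) + (∑ i, b i) + ((m : ℤ) - 1) * lam := by
  classical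
  set F : ZMod m → ℤ := fun j => ∑ i, a i * a (j - i) + ∑ i, b i * b (i + j) with hF
  have hF0 : F 0 = (∑ i, a i) + ∑ i, b i := by
    simp only [hF]
    congr 1
    · refine Finset.sum_congr rfl fun i _ => ?_
      rw [zero_sub, D.asym, D.a_sq]
    · refine Finset.sum_congr rfl fun i _ => ?_
      rw [add_zero, D.b_sq]
  have hsum : ∑ j, F j = (∑ i, a i) ^ 2 + (∑ i, b i) ^ 2 := by
    simp only [hF]
    rw [Finset.sum_add_distrib, Finset.sum_comm, pow_two, pow_two]
    congr 1
    · rw [Finset.sum_mul]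
      refine Finset.sum_congr rfl fun i _ => ?_
      rw [← Finset.mul_sum]
      congr 1
      exact Fintype.sum_equiv (Equiv.subRight i) _ _ (fun _ => rfl)
    · rw [Finset.sum_comm, Finset.sum_mul]
      refine Finset.sum_congr rfl fun i _ => ?_
      rw [← Finset.mul_sum, sum_const_add b i]
  have hsplit : ∑ j, F j = F 0 + ∑ j ∈ Finset.univ.erase (0 : ZMod m), F j :=
    (Finset.add_sum_erase _ _ (Finset.mem_univ _)).symm
  have herase : ∑ j ∈ Finset.univ.erase (0 : ZMod m), F j = ((m : ℤ) - 1) * lam := by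
    rw [Finset.sum_congr rfl (fun j hj => D.h2 j (Finset.ne_of_mem_erase hj))]
    rw [Finset.sum_const, Finset.card_erase_of_mem (Finset.mem_univ _), Finset.card_univ, ZMod.card]
    have hm : 1 ≤ m := Nat.one_le_iff_ne_zero.2 (NeZero.ne m)
    rw [nsmul_eq_mul, Nat.cast_sub hm]
    simp
  rw [← hsum, hsplit, hF0, herase]

/-- `(α - β)² = k - λ`. -/
lemma t2 : (∑ i, a i - ∑ i, b i) ^ 2 = (∑ i, a i) + (∑ i, b i) - lam := by
  have h1 := D.mul_eq
  have h2 := D.sq_eq
  nlinarith

lemma sum_a_nonneg : 0 ≤ ∑ i, a i := Finset.sum_nonneg fun i _ => D.a_nonneg i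

lemma sum_b_nonneg : 0 ≤ ∑ i, b i := Finset.sum_nonneg fun i _ => D.b_nonneg i

lemma sum_a_le : ∑ i, a i ≤ m := by
  calc ∑ i, a i ≤ ∑ _i : ZMod m, (1 : ℤ) := Finset.sum_le_sum fun i _ => D.a_le i
    _ = m := by rw [sum_card]; ring

lemma sum_b_le : ∑ i, b i ≤ m := by
  calc ∑ i, b i ≤ ∑ _i : ZMod m, (1 : ℤ) := Finset.sum_le_sum fun i _ => D.b_le i
    _ = m := by rw [sum_card]; ring

/-- The complement of a difference set. -/
lemma compl : DS (fun i => 1 - a i) (fun i => 1 - b i)
    (2 * (m : ℤ) - 2 * ((∑ i, a i) + (∑ i, b i)) + lam) := by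
  refine ⟨?_, ?_, ?_, ?_, ?_⟩
  · intro i
    rcases D.a01 i with h | h <;> simp [h]
  · intro i
    rcases D.b01 i with h | h <;> simp [h]
  · intro i
    simp [D.asym]
  · intro k
    have h := D.h1 k
    have e1 : ∑ i, (1 - a i) * (1 - b (k + i)) =
        (m : ℤ) - ∑ i, a i - ∑ i, b i + ∑ i, a i * b (k + i) := by
      have : ∀ i, (1 - a i) * (1 - b (k + i)) = 1 - a i - b (k + i) + a i * b (k + i) := by
        intro i; ring
      simp only [this]
      rw [Finset.sum_add_distrib, Finset.sum_sub_distrib, Finset.sum_sub_distrib, sum_const_add b k,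
        sum_card]
      ring
    have e2 : ∑ i, (1 - b i) * (1 - a (k - i)) =
        (m : ℤ) - ∑ i, b i - ∑ i, a i + ∑ i, b i * a (k - i) := by
      have : ∀ i, (1 - b i) * (1 - a (k - i)) = 1 - b i - a (k - i) + b i * a (k - i) := by
        intro i; ring
      simp only [this]
      rw [Finset.sum_add_distrib, Finset.sum_sub_distrib, Finset.sum_sub_distrib, sum_const_sub a k,
        sum_card]
      ring
    rw [e1, e2]
    linarith
  · intro j hj
    have h := D.h2 j hj
    have e1 : ∑ i, (1 - a i) * (1 - a (j - i)) =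
        (m : ℤ) - ∑ i, a i - ∑ i, a i + ∑ i, a i * a (j - i) := by
      have : ∀ i, (1 - a i) * (1 - a (j - i)) = 1 - a i - a (j - i) + a i * a (j - i) := by
        intro i; ring
      simp only [this]
      rw [Finset.sum_add_distrib, Finset.sum_sub_distrib, Finset.sum_sub_distrib, sum_const_sub a j,
        sum_card]
      ring
    have e2 : ∑ i, (1 - b i) * (1 - b (i + j)) =
        (m : ℤ) - ∑ i, b i - ∑ i, b i + ∑ i, b i * b (i + j) := by
      have : ∀ i, (1 - b i) * (1 - b (i + j)) = 1 - b i - b (i + j) + b i * b (i + j) := by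
        intro i; ring
      simp only [this]
      rw [Finset.sum_add_distrib, Finset.sum_sub_distrib, Finset.sum_sub_distrib, sum_add_const b j,
        sum_card]
      ring
    rw [e1, e2]
    linarith

end DS

/-- Difference set data from a closed set whose square is constant off `1`. -/
lemma Scheme.ds_of_ind (S : Scheme m) {X : Set (DihedralGroup m)} (hX : Closed S.rel X) {lam : ℤ}
    (h : ∀ g : DihedralGroup m, g ≠ 1 → (ind X * ind X).coeff g = lam) :
    DS (fun i => (ind X).coeff (r i)) (fun i => (ind X).coeff (sr i)) lam := by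
  refine ⟨fun i => coeff_ind_01 X _, fun i => coeff_ind_01 X _, ?_, ?_, ?_⟩
  · intro i
    have := S.coeff_inv_of_cf (S.cf_ind hX) (r i)
    rw [inv_r] at this
    exact this
  · intro k
    have := h (sr k) (by rintro ⟨⟩)
    rwa [mul_sr] at this
  · intro j hj
    have := h (r j) (by
      intro h
      rw [one_def] at h
      exact hj (r.inj h))
    rwa [mul_r] at this

end

end Cfsg.Agent.Lib.DihS
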