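import Mathlib
import Cfsg.Agent.Lib.DihS3

/-!
Dihedral schemes: odd primes.
-/

namespace Cfsg.Agent.Lib.DihS

open DihedralGroup

noncomputable section

variable {m : ℕ} [NeZero m]

section sign
variable {R : Type} [CommRing R]

/-- The sign character on the group algebra. -/
def sg (y : Alg R m) : R := ∑ i, y.coeff (r i) - ∑ i, y.coeff (sr i)

lemma sg_mul (x y : Alg R m) : sg (x * y) = sg x * sg y := by
  unfold sg
  simp only [mul_r, mul_sr]
  rw [Finset.sum_add_distrib, Finset.sum_add_distrib]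
  have e1 : ∑ j, ∑ i, x.coeff (r i) * y.coeff (r (j - i))
      = (∑ i, x.coeff (r i)) * ∑ i, y.coeff (r i) := by
    rw [Finset.sum_comm, Finset.sum_mul]
    refine Finset.sum_congr rfl fun i _ => ?_
    rw [← Finset.mul_sum]
    congr 1
    exact Fintype.sum_equiv (Equiv.subRight i) _ _ (fun _ => rfl)
  have e2 : ∑ j, ∑ i, x.coeff (sr i) * y.coeff (sr (i + j))
      = (∑ i, x.coeff (sr i)) * ∑ i, y.coeff (sr i) := by
    rw [Finset.sum_comm, Finset.sum_mul]
    refine Finset.sum_congr rfl fun i _ => ?_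
    rw [← Finset.mul_sum]
    congr 1
    exact Fintype.sum_equiv (Equiv.addLeft i) _ _ (fun _ => rfl)
  have e3 : ∑ k, ∑ i, x.coeff (r i) * y.coeff (sr (k + i))
      = (∑ i, x.coeff (r i)) * ∑ i, y.coeff (sr i) := by
    rw [Finset.sum_comm, Finset.sum_mul]
    refine Finset.sum_congr rfl fun i _ => ?_
    rw [← Finset.mul_sum]
    congr 1
    exact Fintype.sum_equiv (Equiv.addRight i) _ _ (fun _ => rfl)
  have e4 : ∑ k, ∑ i, x.coeff (sr i) * y.coeff (r (k - i))
      = (∑ i, x.coeff (sr i)) * ∑ i, y.coeff (r i) := by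
    rw [Finset.sum_comm, Finset.sum_mul]
    refine Finset.sum_congr rfl fun i _ => ?_
    rw [← Finset.mul_sum]
    congr 1
    exact Fintype.sum_equiv (Equiv.subRight i) _ _ (fun _ => rfl)
  rw [e1, e2, e3, e4]
  ring

lemma sg_one : sg (1 : Alg R m) = 1 := by
  classical
  unfold sg
  have h1 : ∀ i : ZMod m, ((r i : DihedralGroup m) = 1) ↔ i = 0 := by
    intro i
    rw [one_def]
    exact (r.injEq i 0).to_iff
  have h2 : ∑ i : ZMod m, (1 : Alg R m).coeff (sr i) = 0 := by
    apply Finset.sum_eq_zero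
    intro i _
    rw [coeff_one_eq, if_neg]
    rintro ⟨⟩
  rw [h2]
  simp only [coeff_one_eq, h1]
  simp

lemma sg_pow (x : Alg R m) (n : ℕ) : sg (x ^ n) = sg x ^ n := by
  induction n with
  | zero => simp [sg_one]
  | succ n ih => rw [pow_succ, sg_mul, ih, pow_succ]

end sign

lemma iff_of_rel {rel : DihedralGroup m → DihedralGroup m → Prop}
    (hs : ∀ {g h}, rel g h → rel h g) {X : Set (DihedralGroup m)}
    (hX : Closed rel X) {g h : DihedralGroup m} (H : rel g h) : g ∈ X ↔ h ∈ X :=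
  ⟨hX g h H, hX h g (hs H)⟩

section wpfacts
variable {p : ℕ} [hp : Fact p.Prime]

lemma nsmul_wp_ne_zero (hpm : p ∣ m) {l : ℕ} (h0 : 0 < l) (hl : l < p) : l • wp m p ≠ 0 := by
  intro h
  have h1 := addOrderOf_dvd_of_nsmul_eq_zero h
  rw [addOrderOf_wp hpm] at h1
  exact absurd (Nat.le_of_dvd h0 h1) (by omega)

end wpfacts

/-- Arithmetic core of the bound for odd primes. -/
lemma odd_bound_arith (α β lam M P : ℤ) (hP : 3 ≤ P) (hM : 0 ≤ M)
    (ha0 : 0 ≤ α) (ha1 : α ≤ M) (hb0 : 0 ≤ β) (hb1 : β ≤ M)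
    (E1 : (α - β) ^ 2 = α + β - lam)
    (E2 : α ^ 2 + β ^ 2 = α + β + (M - 1) * lam)
    (hC : P * β ^ 2 ≤ M * (β + (P - 1) * (lam - α)))
    (hd : P ∣ α - β) (hne : α ≠ β) : False := by
  set θ := β - α with hθ
  have hlam : lam = α + β - θ ^ 2 := by
    have : (α - β) ^ 2 = θ ^ 2 := by rw [hθ]; ring
    linarith
  subst hlam
  have hI : (P - 1) * M * θ ^ 2 ≤ P * β * (M - β) := by
    have e : β + (P - 1) * (α + β - θ ^ 2 - α) = P * β - (P - 1) * θ ^ 2 := by ring
    rw [e] at hC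
    nlinarith
  have hII : α * (M - α) + β * (M - β) = (M - 1) * θ ^ 2 := by
    nlinarith
  have hIII : P * (α * (M - α)) ≤ (M - P) * θ ^ 2 := by
    have : P * (α * (M - α)) = P * ((M - 1) * θ ^ 2) - P * (β * (M - β)) := by
      rw [← hII]; ring
    rw [this]
    nlinarith
  have hIV : ((P - 2) * M + P) * θ ^ 2 ≤ P * θ * (M - (α + β)) := by
    have e : P * θ * (M - (α + β)) = P * β * (M - β) - P * (α * (M - α)) := by
      rw [hθ]; ring
    rw [e]
    nlinarith
  have hθ0 : θ ≠ 0 := by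
    rw [hθ]
    intro h
    exact hne (by linarith)
  have hθd : P ∣ θ := by
    have : θ = -(α - β) := by rw [hθ]; ring
    rw [this]
    exact (dvd_neg).2 hd
  have hθP : P ≤ |θ| := by
    have h1 : P ∣ |θ| := (dvd_abs _ _).2 hθd
    exact Int.le_of_dvd (abs_pos.2 hθ0) h1
  have hθ2 : 0 < θ ^ 2 := by positivity
  have habs : θ * (M - (α + β)) ≤ |θ| * M := by
    have h1 : θ * (M - (α + β)) ≤ |θ * (M - (α + β))| := le_abs_self _
    rw [abs_mul] at h1
    have h2 : |M - (α + β)| ≤ M := by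
      rw [abs_le]
      constructor <;> linarith
    exact h1.trans (mul_le_mul_of_nonneg_left h2 (abs_nonneg _))
  have h5 : P * θ * (M - (α + β)) ≤ θ ^ 2 * M := by
    have h6 : P * θ * (M - (α + β)) = P * (θ * (M - (α + β))) := by ring
    rw [h6]
    have hP0 : 0 ≤ P := by linarith
    have h7 : P * (θ * (M - (α + β))) ≤ P * (|θ| * M) := mul_le_mul_of_nonneg_left habs hP0
    have h8 : P * (|θ| * M) ≤ |θ| * (|θ| * M) :=
      mul_le_mul_of_nonneg_right hθP (mul_nonneg (abs_nonneg _) hM)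
    have h9 : |θ| * (|θ| * M) = θ ^ 2 * M := by
      rw [← mul_assoc, abs_mul_abs_self]; ring
    linarith
  have h6 : ((P - 2) * M + P) * θ ^ 2 ≤ M * θ ^ 2 := by linarith
  have h7 : (P - 2) * M + P ≤ M := le_of_mul_le_mul_right h6 hθ2
  nlinarith

namespace DS

variable {a b : ZMod m → ℤ} {lam : ℤ} (D : DS a b lam)
include D

lemma odd_bound {p : ℕ} [hp : Fact p.Prime] (hp3 : p ≠ 2) (hpm : p ∣ m)
    (ha : ∀ i, a (i + wp m p) = a i) (hdvd : (p : ℤ) ∣ ∑ i, a i - ∑ i, b i)
    (hne : ∑ i, a i ≠ ∑ i, b i) : False := by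
  classical
  set w := wp m p with hw
  set α := ∑ i, a i with hα
  set β := ∑ i, b i with hβ
  have hp2 : 2 ≤ p := hp.out.two_le
  have hp3' : 3 ≤ p := by omega
  have hal : ∀ (l : ℕ) i, a (i + l • w) = a i := by
    intro l i
    induction l with
    | zero => simp
    | succ l ih => rw [succ_nsmul, ← add_assoc, ha, ih]
  have hpw : p • w = 0 := wp_nsmul hpm
  have hbb : ∀ l : ℕ, l • w ≠ 0 → ∑ i, b i * b (i + l • w) = lam - α := by
    intro l hl
    have h := D.h2 _ hl
    have h1 : ∑ i, a i * a (l • w - i) = α := by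
      rw [hα]
      refine Finset.sum_congr rfl fun i _ => ?_
      rw [show l • w - i = -i + l • w by abel, hal, D.asym, D.a_sq]
    linarith
  set n : ZMod m → ℤ := fun i => ∑ l ∈ Finset.range p, b (i + l • w) with hn
  have hn1 : ∑ i, n i = (p : ℤ) * β := by
    simp only [hn]
    rw [Finset.sum_comm]
    have : ∀ l ∈ Finset.range p, ∑ i, b (i + l • w) = β := fun l _ => sum_add_const b _
    rw [Finset.sum_congr rfl this]
    simp
  have hn2 : ∑ i, b i * n i = β + ((p : ℤ) - 1) * (lam - α) := by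
    simp only [hn, Finset.mul_sum]
    rw [Finset.sum_comm]
    obtain ⟨q, hq⟩ : ∃ q, p = q + 1 := ⟨p - 1, by omega⟩
    have hqc : ((p : ℤ) - 1) = q := by rw [hq]; push_cast; ring
    rw [hqc]
    conv_lhs => rw [hq]
    rw [Finset.sum_range_succ']
    have h1 : ∀ l ∈ Finset.range q, ∑ i, b i * b (i + (l + 1) • w) = lam - α := by
      intro l hl
      apply hbb
      exact nsmul_wp_ne_zero hpm (by omega) (by have := Finset.mem_range.1 hl; omega)
    rw [Finset.sum_congr rfl h1]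
    have h2 : ∑ i, b i * b (i + 0 • w) = β := by
      rw [hβ]
      refine Finset.sum_congr rfl fun i _ => ?_
      rw [zero_nsmul, add_zero, D.b_sq]
    rw [h2]
    simp
    ring
  have hnw : ∀ i, n (i + w) = n i := by
    intro i
    simp only [hn]
    have h1 := Finset.sum_range_succ (fun l => b (i + l • w)) p
    have h2 := Finset.sum_range_succ' (fun l => b (i + l • w)) p
    simp only [zero_nsmul, add_zero] at h2
    rw [hpw, add_zero] at h1
    have h3 : ∑ l ∈ Finset.range p, b (i + (l + 1) • w) = ∑ l ∈ Finset.range p, b (i + l • w) := by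
      linarith
    rw [← h3]
    refine Finset.sum_congr rfl fun l _ => ?_
    rw [succ_nsmul]
    congr 1
    abel
  have hnl : ∀ (l : ℕ) i, n (i + l • w) = n i := by
    intro l i
    induction l with
    | zero => simp
    | succ l ih => rw [succ_nsmul, ← add_assoc, hnw, ih]
  have hn3 : ∑ i, n i ^ 2 = (p : ℤ) * ∑ i, b i * n i := by
    have h1 : ∀ i, n i ^ 2 = ∑ l ∈ Finset.range p, b (i + l • w) * n (i + l • w) := by
      intro i
      rw [pow_two]
      conv_lhs => lhs; rw [hn]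
      simp only [Finset.sum_mul]
      refine Finset.sum_congr rfl fun l _ => ?_
      rw [hnl]
    simp only [h1]
    rw [Finset.sum_comm]
    have h2 : ∀ l ∈ Finset.range p, ∑ i, b (i + l • w) * n (i + l • w) = ∑ i, b i * n i :=
      fun l _ => sum_add_const (fun i => b i * n i) _
    rw [Finset.sum_congr rfl h2]
    simp
  have hC := sq_sum_le_card_mul_sum_sq (s := (Finset.univ : Finset (ZMod m))) (f := n)
  rw [hn1, hn3, hn2, Finset.card_univ, ZMod.card] at hC
  have hpz : (0 : ℤ) < p := by exact_mod_cast hp.out.pos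
  have hC' : (p : ℤ) * β ^ 2 ≤ (m : ℤ) * (β + ((p : ℤ) - 1) * (lam - α)) := by
    have h1 : (p : ℤ) * ((p : ℤ) * β ^ 2) ≤ (p : ℤ) * ((m : ℤ) * (β + ((p : ℤ) - 1) * (lam - α))) := by
      calc (p : ℤ) * ((p : ℤ) * β ^ 2) = ((p : ℤ) * β) ^ 2 := by ring
        _ ≤ _ := hC
        _ = _ := by ring
    exact le_of_mul_le_mul_left h1 hpz
  exact odd_bound_arith α β lam m p (by exact_mod_cast hp3') (by positivity)
    D.sum_a_nonneg D.sum_a_le D.sum_b_nonneg D.sum_b_le D.t2 D.sq_eq hC' hdvd hne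

end DS

namespace Scheme

variable (S : Scheme m)

lemma alpha_ne_beta {X : Set (DihedralGroup m)} (hX : Closed S.rel X)
    (h1 : (1 : DihedralGroup m) ∉ X) {v : DihedralGroup m} (hv : v ∈ X) {lam : ℤ}
    (h : ∀ g : DihedralGroup m, g ≠ 1 → (ind X * ind X).coeff g = lam) :
    ∑ i, (ind X).coeff (r i) ≠ ∑ i, (ind X).coeff (sr i) := by
  intro heq
  have D := S.ds_of_ind hX h
  have ht : (∑ i, (ind X).coeff (r i) - ∑ i, (ind X).coeff (sr i)) ^ 2
      = ∑ i, (ind X).coeff (r i) + ∑ i, (ind X).coeff (sr i) - lam := D.t2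
  rw [heq, sub_self] at ht
  have hlam : lam = ∑ u, (ind X).coeff u := by
    rw [sum_H, ← heq]
    rw [← heq] at ht
    linarith
  have hv1 : v ≠ 1 := fun hh => h1 (hh ▸ hv)
  have h2 := h v hv1
  rw [coeff_mul_eq, hlam] at h2
  have hle : ∀ u ∈ (Finset.univ : Finset (DihedralGroup m)),
      (ind X).coeff u * (ind X).coeff (u⁻¹ * v) ≤ (ind X).coeff u := by
    intro u _
    rcases coeff_ind_01 X u with h3 | h3 <;> rcases coeff_ind_01 X (u⁻¹ * v) with h4 | h4 <;>
      simp [h3, h4]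
  have h3 := (Finset.sum_eq_sum_iff_of_le hle).1 h2 v (Finset.mem_univ v)
  rw [inv_mul_cancel, coeff_ind_of_not_mem h1, coeff_ind_of_mem hv] at h3
  simp at h3

section odd

variable {p : ℕ} [hp : Fact p.Prime]

lemma dvd_alpha_sub_beta (hodd : p ≠ 2) (hpm : p ∣ m) {U : Set (DihedralGroup m)}
    (hU : Closed S.rel U) (ha : ∀ i, r (i + wp m p) ∈ U ↔ r i ∈ U) :
    (p : ℤ) ∣ ∑ i, (ind U).coeff (r i) - ∑ i, (ind U).coeff (sr i) := by
  classical
  set w := wp m p with hw
  set x := ind U with hx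
  have hcf : CF S.rel x := S.cf_ind hU
  have hm2 : 2 ≤ m := by
    have h1 := Nat.le_of_dvd (Nat.pos_of_ne_zero (NeZero.ne m)) hpm
    have h2 := hp.out.two_le
    omega
  have hxa : ∀ (l : ℕ) i, x.coeff (r (i + l • w)) = x.coeff (r i) := by
    intro l i
    induction l with
    | zero => simp
    | succ l ih =>
      rw [succ_nsmul, ← add_assoc, ← ih]
      exact coeff_ind_congr (ha _)
  have hrj : ∀ j, ((x ^ p).coeff (r j) : ZMod p) = 0 := by
    intro j
    rw [S.pow_coeff_r p hodd hcf j]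
    by_cases hj : ∃ i₀, i₀ * (p : ZMod m) = j
    · obtain ⟨i₀, rfl⟩ := hj
      rw [fiber_sum hpm, ← hw]
      simp only [hxa]
      simp
    · apply Finset.sum_eq_zero
      intro i _
      rw [if_neg]
      intro hi
      exact hj ⟨i, hi⟩
  have hall : ∀ g, (p : ℤ) ∣ (x ^ p).coeff g := by
    intro g
    rw [← ZMod.intCast_zmod_eq_zero_iff_dvd]
    by_cases hg : g = 1
    · subst hg
      rw [one_def]
      exact hrj 0
    · obtain ⟨i, hi⟩ := S.exists_rot hm2 hg
      rw [S.cf_pow hcf p _ _ hi]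
      exact hrj i
  have h1 : (p : ℤ) ∣ sg (x ^ p) :=
    dvd_sub (Finset.dvd_sum fun i _ => hall _) (Finset.dvd_sum fun i _ => hall _)
  rw [sg_pow] at h1
  exact (Nat.prime_iff_prime_int.1 hp.out).dvd_of_dvd_pow h1

variable (hrat : ∀ i j : ZMod m, addOrderOf i = addOrderOf j → S.rel (r i) (r j))
include hrat

/-- For an odd prime, a closed set avoiding `1` is not periodic unless empty. -/
lemma odd_no_periodic (hodd : p ≠ 2) (hpm : p ∣ m) {U : Set (DihedralGroup m)}
    (hU : Closed S.rel U) (h1 : (1 : DihedralGroup m) ∉ U)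
    (ha : ∀ i, r (i + wp m p) ∈ U ↔ r i ∈ U) : U = ∅ := by
  by_contra hne
  obtain ⟨v, hv⟩ := Set.nonempty_iff_ne_empty.2 hne
  obtain ⟨lam, hlam⟩ := S.caseA hrat hpm hU ha
  have D := S.ds_of_ind hU hlam
  have hd := S.dvd_alpha_sub_beta hodd hpm hU ha
  have hn := S.alpha_ne_beta hU h1 hv hlam
  exact D.odd_bound hodd hpm (fun i => coeff_ind_congr (ha i)) hd hn

omit hp in
lemma pow_r_of_dvd' {p : ℕ} [hp : Fact p.Prime] (hodd : p ≠ 2) (hpm : p ∣ m)
    {T : Set (DihedralGroup m)} (hT : Closed S.rel T)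
    {j : ZMod m} (hj : p ∣ addOrderOf j) :
    (((ind T) ^ p).coeff (r j) : ZMod p) = 0 := by
  classical
  set x := ind T with hx
  have hcf : CF S.rel x := S.cf_ind hT
  rw [S.pow_coeff_r p hodd hcf j]
  by_cases hj' : ∃ i₀, i₀ * (p : ZMod m) = j
  · obtain ⟨i₀, rfl⟩ := hj'
    have hsq := sq_dvd_of_mul_p hj
    rw [fiber_sum hpm]
    have h1 : ∀ l : ℕ, x.coeff (r (i₀ + l • wp m p)) = x.coeff (r i₀) := by
      intro l
      have h2 : addOrderOf (i₀ + l • wp m p) = addOrderOf i₀ :=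
        addOrderOf_add_of_sq_dvd (by rw [smul_comm, wp_nsmul hpm, nsmul_zero]) hsq
      exact (hcf _ _ (hrat _ _ h2))
    simp only [h1]
    simp
  · apply Finset.sum_eq_zero
    intro i _
    rw [if_neg]
    intro hi
    exact hj' ⟨i, hi⟩

lemma pow_r_of_not_dvd (hodd : p ≠ 2) (hpm : p ∣ m)
    {T : Set (DihedralGroup m)} (hT : Closed S.rel T)
    {i : ZMod m} (hi : ¬ p ∣ addOrderOf i) :
    (((ind T) ^ p).coeff (r (i * (p : ZMod m))) : ZMod p)
      = ((ind T).coeff (r i) : ZMod p) - ((ind T).coeff (r (i + wp m p)) : ZMod p) := by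
  classical
  set x := ind T with hx
  have hcf : CF S.rel x := S.cf_ind hT
  rw [S.pow_coeff_r p hodd hcf, fiber_sum hpm]
  have h2 := hp.out.two_le
  obtain ⟨q, hq⟩ : ∃ q, p = q + 1 := ⟨p - 1, by omega⟩
  have h1 : ∀ l ∈ Finset.range q,
      ((x.coeff (r (i + (l + 1) • wp m p)) : ℤ) : ZMod p) = ((x.coeff (r (i + wp m p)) : ℤ) : ZMod p) := by
    intro l hl
    congr 1
    apply hcf
    apply hrat
    have hl' := Finset.mem_range.1 hl
    rw [addOrderOf_add_of_not_dvd hpm hi (nsmul_wp_ne_zero hpm (by omega) (by omega))]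
    have h3 := addOrderOf_add_of_not_dvd hpm hi (l := 1) (by
      rw [one_nsmul]; exact wp_ne_zero hpm)
    rw [one_nsmul] at h3
    rw [h3]
  have hqz : ((q : ℕ) : ZMod p) = -1 := by
    have h3 : ((q + 1 : ℕ) : ZMod p) = 0 := by
      rw [← hq]; exact ZMod.natCast_self p
    push_cast at h3
    exact eq_neg_of_add_eq_zero_left h3
  have hsplit : ∑ l ∈ Finset.range p, ((x.coeff (r (i + l • wp m p)) : ℤ) : ZMod p)
      = ∑ l ∈ Finset.range q, ((x.coeff (r (i + (l + 1) • wp m p)) : ℤ) : ZMod p)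
        + ((x.coeff (r (i + 0 • wp m p)) : ℤ) : ZMod p) := by
    have hrg : Finset.range p = Finset.range (q + 1) := by rw [hq]
    rw [hrg]
    exact Finset.sum_range_succ' _ _
  rw [hsplit, Finset.sum_congr rfl h1]
  simp only [Finset.sum_const, Finset.card_range, zero_nsmul, add_zero, nsmul_eq_mul, hqz]
  ring

lemma P1 (hodd : p ≠ 2) (hpm : p ∣ m) {i i' : ZMod m} (hi : ¬ p ∣ addOrderOf i)
    (hi' : p ∣ addOrderOf i') (h : S.rel (r i) (r i')) : S.rel (r i) (r (i + wp m p)) := by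
  classical
  set T : Set (DihedralGroup m) := {g | S.rel (r i) g} with hT
  have hTc : Closed S.rel T := S.closed_class _
  have hcf : CF S.rel (ind T) := S.cf_ind hTc
  have hY : CF S.rel ((ind T) ^ p) := S.cf_pow hcf p
  have h1 := S.pow_r_of_dvd' hrat hodd hpm hTc hi'
  have h2 := S.pow_r_of_not_dvd hrat hodd hpm hTc hi
  have h3 : S.rel (r (i * (p : ZMod m))) (r i) :=
    hrat _ _ (addOrderOf_mul_p_of_not_dvd hi)
  rw [hY _ _ h3, hY _ _ h, h1, coeff_ind_of_mem (X := T) (S.refl (r i))] at h2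
  by_contra hne
  rw [coeff_ind_of_not_mem (X := T) hne] at h2
  simp at h2

lemma P2 (hodd : p ≠ 2) (hpm : p ∣ m) {i i' : ZMod m} (hi : ¬ p ∣ addOrderOf i)
    (hi' : ¬ p ∣ addOrderOf i') (h : S.rel (r i) (r i')) :
    S.rel (r (i + wp m p)) (r (i' + wp m p)) := by
  classical
  set T : Set (DihedralGroup m) := {g | S.rel (r (i + wp m p)) g} with hT
  have hTc : Closed S.rel T := S.closed_class _
  have hcf : CF S.rel (ind T) := S.cf_ind hTc
  have hY : CF S.rel ((ind T) ^ p) := S.cf_pow hcf p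
  have h1 := S.pow_r_of_not_dvd hrat hodd hpm hTc hi
  have h2 := S.pow_r_of_not_dvd hrat hodd hpm hTc hi'
  have h3 : S.rel (r (i * (p : ZMod m))) (r i) :=
    hrat _ _ (addOrderOf_mul_p_of_not_dvd hi)
  have h4 : S.rel (r (i' * (p : ZMod m))) (r i') :=
    hrat _ _ (addOrderOf_mul_p_of_not_dvd hi')
  have h5 : S.rel (r (i * (p : ZMod m))) (r (i' * (p : ZMod m))) :=
    S.trans h3 (S.trans h (S.symm h4))
  rw [hY _ _ h5, h2, hcf _ _ h, coeff_ind_of_mem (X := T) (S.refl _)] at h1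
  by_contra hne
  rw [coeff_ind_of_not_mem (X := T) hne] at h1
  have h7 : ((1 : ℤ) : ZMod p) = ((0 : ℤ) : ZMod p) := by linear_combination h1
  simp at h7

/-- All rotations whose order is divisible by the odd prime `p` are in one class. -/
theorem star (hodd : p ≠ 2) (hpm : p ∣ m) {i₀ : ZMod m} (hi₀ : p ∣ addOrderOf i₀) :
    S.rel (r i₀) (r (wp m p)) := by
  classical
  by_contra hne
  set w := wp m p with hw
  set U : Set (DihedralGroup m) := {g | S.rel (r i₀) g ∨
    ∃ i : ZMod m, ¬ p ∣ addOrderOf i ∧ S.rel g (r i) ∧ S.rel (r (i + w)) (r i₀)} with hU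
  have hUc : Closed S.rel U := by
    rintro g h hgh (hg | ⟨i, h1, h2, h3⟩)
    · exact Or.inl (S.trans hg hgh)
    · exact Or.inr ⟨i, h1, S.trans (S.symm hgh) h2, h3⟩
  have h1U : (1 : DihedralGroup m) ∉ U := by
    rintro (hg | ⟨i, h1, h2, h3⟩)
    · have h4 := S.one hg
      rw [one_def] at h4
      have h5 := r.inj h4
      rw [h5, addOrderOf_zero] at hi₀
      exact hp.out.one_lt.ne' (Nat.dvd_one.1 hi₀)
    · have h4 := S.one (S.symm h2)
      rw [one_def] at h4
      have h5 := r.inj h4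
      rw [h5, zero_add] at h3
      exact hne (S.symm h3)
  have hw1 : ∀ i₁ : ZMod m, ¬ p ∣ addOrderOf i₁ → p ∣ addOrderOf (i₁ + w) := by
    intro i₁ hi₁
    have h3 := addOrderOf_add_of_not_dvd hpm hi₁ (l := 1) (by
      rw [one_nsmul]; exact wp_ne_zero hpm)
    rw [one_nsmul] at h3
    rw [hw, h3]
    exact Dvd.intro_left _ rfl
  have key : ∀ i₁ : ZMod m, ¬ p ∣ addOrderOf i₁ → (r (i₁ + w) ∈ U ↔ r i₁ ∈ U) := by
    intro i₁ hi₁
    constructor
    · intro h
      have hmem : S.rel (r i₀) (r (i₁ + w)) := by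
        rcases h with hg | ⟨i, h1, h2, h3⟩
        · exact hg
        · have h4 := S.P1 hrat hodd hpm h1 (hw1 i₁ hi₁) (S.symm h2)
          exact S.symm (S.trans h2 (S.trans h4 h3))
      exact Or.inr ⟨i₁, hi₁, S.refl _, S.symm hmem⟩
    · rintro (hg | ⟨i, h1, h2, h3⟩)
      · have h4 := S.P1 hrat hodd hpm hi₁ hi₀ (S.symm hg)
        exact Or.inl (S.trans hg h4)
      · have h4 := S.P2 hrat hodd hpm hi₁ h1 h2
        exact Or.inl (S.symm (S.trans h4 h3))
  have hper : ∀ i, r (i + w) ∈ U ↔ r i ∈ U := by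
    intro i
    by_cases hsq : p * p ∣ addOrderOf i
    · have h1 : addOrderOf (i + w) = addOrderOf i :=
        addOrderOf_add_of_sq_dvd (wp_nsmul hpm) hsq
      exact iff_of_rel S.symm hUc (hrat _ _ h1)
    · obtain ⟨i₁, hi₁, l, hl⟩ := exists_decomp hpm hsq
      have hall : ∀ l : ℕ, r (i₁ + l • w) ∈ U ↔ r i₁ ∈ U := by
        intro l
        by_cases h0 : l • w = 0
        · rw [h0, add_zero]
        · have h3 := addOrderOf_add_of_not_dvd hpm hi₁ (l := 1) (by
            rw [one_nsmul]; exact wp_ne_zero hpm)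
          have h4 := addOrderOf_add_of_not_dvd hpm hi₁ h0
          rw [one_nsmul] at h3
          have h5 : addOrderOf (i₁ + l • w) = addOrderOf (i₁ + w) := by
            rw [h4, hw, h3]
          exact (iff_of_rel S.symm hUc (hrat _ _ h5)).trans (key i₁ hi₁)
      have e1 : i + w = i₁ + (l + 1) • w := by
        rw [hl, succ_nsmul, add_assoc]
      rw [e1, hl]
      exact (hall _).trans (hall _).symm
  have hemp := S.odd_no_periodic hrat hodd hpm hUc h1U hper
  have : (r i₀ : DihedralGroup m) ∈ U := Or.inl (S.refl _)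
  rw [hemp] at this
  exact this

end odd

end Scheme

end

end Cfsg.Agent.Lib.DihS
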