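import Mathlib
import Cfsg.Agent.Lib.DihS4

/-!
Dihedral schemes: difference sets on `ZMod m` with rotation part supported on a subgroup.
-/

namespace Cfsg.Agent.Lib.DihS

open DihedralGroup

noncomputable section

variable {m : ℕ} [NeZero m]

open Classical in
/-- Indicator of the `d`-torsion subgroup. -/
def tor (d : ℕ) (v : ZMod m) : ℤ := if d • v = 0 then 1 else 0

lemma tor_of {d : ℕ} {v : ZMod m} (h : d • v = 0) : tor d v = 1 := if_pos h

lemma tor_of_not {d : ℕ} {v : ZMod m} (h : d • v ≠ 0) : tor d v = 0 := if_neg h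

lemma tor_01 (d : ℕ) (v : ZMod m) : tor d v = 0 ∨ tor d v = 1 := by
  by_cases h : d • v = 0
  · right; exact tor_of h
  · left; exact tor_of_not h

lemma tor_add_left {d : ℕ} {u v : ZMod m} (hu : d • u = 0) : tor d (u + v) = tor d v := by
  by_cases h : d • v = 0
  · rw [tor_of h, tor_of (by rw [nsmul_add, hu, h, add_zero])]
  · rw [tor_of_not h, tor_of_not (by rwa [nsmul_add, hu, zero_add])]

lemma tor_add_right {d : ℕ} {u v : ZMod m} (hu : d • u = 0) : tor d (v + u) = tor d v := by
  rw [add_comm, tor_add_left hu]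

lemma tor_neg (d : ℕ) (v : ZMod m) : tor d (-v) = tor d v := by
  by_cases h : d • v = 0
  · rw [tor_of h, tor_of (by rw [smul_neg, h, neg_zero])]
  · rw [tor_of_not h, tor_of_not (by rwa [smul_neg, neg_ne_zero])]

lemma tor_zero (d : ℕ) : tor d (0 : ZMod m) = 1 := tor_of (by simp)

lemma exists_of_nsmul {d : ℕ} (hd : d ∣ m) {c : ZMod m} (hc : d • c = 0) :
    ∃ l, l < d ∧ c = l • ((m / d : ℕ) : ZMod m) := by
  obtain ⟨f, hf⟩ := hd
  have hm : 0 < m := Nat.pos_of_ne_zero (NeZero.ne m)
  have hd0 : 0 < d := by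
    rcases Nat.eq_zero_or_pos d with h | h
    · subst h
      simp at hf
      omega
    · exact h
  have hcv : (c.val : ZMod m) = c := ZMod.natCast_zmod_val c
  have h1 : m ∣ c.val * d := by
    rw [← ZMod.natCast_eq_zero_iff]
    push_cast
    rw [hcv, mul_comm, ← nsmul_eq_mul]
    exact hc
  obtain ⟨k, hk⟩ := h1
  have hl : c.val = f * k := by
    have h2 : d * c.val = d * (f * k) := by
      calc d * c.val = c.val * d := by ring
        _ = m * k := hk
        _ = d * f * k := by rw [← hf]
        _ = d * (f * k) := by ring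
    exact Nat.eq_of_mul_eq_mul_left hd0 h2
  refine ⟨k, ?_, ?_⟩
  · have hlt : c.val < m := ZMod.val_lt c
    have h3 : f * k < d * f := by
      rw [← hl, ← hf]; exact hlt
    rw [mul_comm d f] at h3
    exact Nat.lt_of_mul_lt_mul_left h3
  · have hdiv : m / d = f := by
      have h4 : m / d = (d * f) / d := by rw [← hf]
      rw [h4]
      exact Nat.mul_div_cancel_left _ hd0
    rw [hdiv, nsmul_eq_mul, ← hcv, hl]
    push_cast
    ring

lemma sum_tor {d : ℕ} (hd : d ∣ m) : ∑ v : ZMod m, tor d v = d := by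
  classical
  have h1 : ∑ v : ZMod m, tor d v = ((Finset.univ.filter fun v : ZMod m => d • v = 0).card : ℤ) := by
    rw [Finset.card_filter]
    push_cast
    rfl
  rw [h1]
  congr 1
  have hm : m ≠ 0 := NeZero.ne m
  set u : ZMod m := ((m / d : ℕ) : ZMod m) with hu
  have hord : addOrderOf u = d := by
    rw [hu, ZMod.addOrderOf_coe _ hm]
    have h2 : Nat.gcd m (m / d) = m / d := Nat.gcd_eq_right (Nat.div_dvd_of_dvd hd)
    rw [h2]
    exact Nat.div_div_self hd hm
  have hdu : d • u = 0 := by rw [← hord]; exact addOrderOf_nsmul_eq_zero u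
  have h3 := Finset.card_bij (s := Finset.range d)
    (t := Finset.univ.filter fun v : ZMod m => d • v = 0) (fun l _ => l • u)
    (by
      intro l _
      simp only [Finset.mem_filter, Finset.mem_univ, true_and]
      rw [smul_comm, hdu, smul_zero])
    (by
      intro l hl l' hl' h
      rw [nsmul_eq_nsmul_iff_modEq, hord] at h
      exact Nat.ModEq.eq_of_lt_of_lt h (Finset.mem_range.1 hl) (Finset.mem_range.1 hl'))
    (by
      intro c hc
      simp only [Finset.mem_filter, Finset.mem_univ, true_and] at hc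
      obtain ⟨l, hl, hl2⟩ := exists_of_nsmul hd hc
      exact ⟨l, Finset.mem_range.2 hl, hl2.symm⟩)
  rw [← h3, Finset.card_range]

lemma sum_swap (e p : ZMod m → ℤ) (q : ZMod m → ZMod m → ℤ) :
    ∑ v, e v * ∑ i, p i * q i v = ∑ i, p i * ∑ v, e v * q i v := by
  simp only [Finset.mul_sum]
  rw [Finset.sum_comm]
  refine Finset.sum_congr rfl fun i _ => Finset.sum_congr rfl fun v _ => ?_
  ring

namespace DS

variable {a b : ZMod m → ℤ} {lam : ℤ} (D : DS a b lam)
include D

lemma F_eq (j : ZMod m) : ∑ i, a i * a (j - i) + ∑ i, b i * b (i + j)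
    = lam + if j = 0 then (∑ i, a i) + (∑ i, b i) - lam else 0 := by
  by_cases hj : j = 0
  · subst hj
    rw [if_pos rfl]
    have h1 : ∑ i, a i * a (0 - i) = ∑ i, a i := by
      refine Finset.sum_congr rfl fun i _ => ?_
      rw [zero_sub, D.asym, D.a_sq]
    have h2 : ∑ i, b i * b (i + 0) = ∑ i, b i := by
      refine Finset.sum_congr rfl fun i _ => ?_
      rw [add_zero, D.b_sq]
    rw [h1, h2]
    ring
  · rw [if_neg hj, add_zero]
    exact D.h2 j hj

lemma sum_mul_F (e : ZMod m → ℤ) :
    ∑ j, e j * (∑ i, a i * a (j - i) + ∑ i, b i * b (i + j))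
      = (∑ j, e j) * lam + e 0 * ((∑ i, a i) + (∑ i, b i) - lam) := by
  classical
  simp only [D.F_eq, mul_add, Finset.sum_add_distrib, ← Finset.sum_mul]
  congr 1
  simp

lemma sum_mul_F' (e : ZMod m → ℤ) (v₁ : ZMod m) (hv : ∀ j, j + v₁ = 0 → e j = 0) :
    ∑ j, e j * (∑ i, a i * a (j + v₁ - i) + ∑ i, b i * b (i + (j + v₁)))
      = (∑ j, e j) * lam := by
  classical
  rw [Finset.sum_mul]
  refine Finset.sum_congr rfl fun j _ => ?_
  by_cases hj : j + v₁ = 0
  · rw [hv j hj]; ring
  · rw [D.h2 _ hj]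

/-- Key lemma: rotation part supported on a subgroup of order `κ`, index `m' > 1`. -/
lemma support_lemma {κ m' : ℕ} (hm : m = κ * m') (hm' : 1 < m')
    (hsupp : ∀ i, a i ≠ 0 → κ • i = 0) (hα : ∑ i, a i ≠ 0) (hβ : ∑ i, b i ≠ 0) :
    m = 2 ∨ m = 8 := by
  classical
  have hκd : κ ∣ m := ⟨m', hm⟩
  have hm0 : 0 < m := Nat.pos_of_ne_zero (NeZero.ne m)
  have hα0 := D.sum_a_nonneg
  have hβ0 := D.sum_b_nonneg
  have hmul := D.mul_eq
  have ht2 := D.t2
  set α := ∑ i, a i with hαd
  set β := ∑ i, b i with hβd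
  set e := tor (m := m) κ with he
  have heκ : ∑ v, e v = κ := sum_tor hκd
  set n : ZMod m → ℤ := fun c => ∑ v, e v * b (c + v) with hn
  have hnper : ∀ c i, κ • i = 0 → n (c + i) = n c := by
    intro c i hi
    simp only [hn]
    refine Fintype.sum_equiv (Equiv.addLeft i) _ _ ?_
    intro v
    simp only [Equiv.coe_addLeft]
    rw [he, tor_add_left hi]
    congr 2
    ring
  have hF1 : ∀ c, 2 * α * n c = κ * lam := by
    intro c
    have h1 : ∑ v, e v * (2 * ∑ i, a i * b (c + v + i)) = ∑ v, e v * lam :=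
      Finset.sum_congr rfl fun v _ => by rw [D.h1']
    rw [← Finset.sum_mul, heκ] at h1
    rw [← h1]
    have h2 : ∑ v, e v * ∑ i, a i * b (c + v + i) = ∑ i, a i * n (c + i) := by
      rw [sum_swap]
      refine Finset.sum_congr rfl fun i _ => ?_
      simp only [hn]
      congr 1
      refine Finset.sum_congr rfl fun v _ => ?_
      congr 2
      ring
    have h3 : ∑ i, a i * n (c + i) = α * n c := by
      rw [hαd, Finset.sum_mul]
      refine Finset.sum_congr rfl fun i _ => ?_
      by_cases hi : a i = 0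
      · rw [hi]; ring
      · rw [hnper c i (hsupp i hi)]
    have h4 : ∑ v, e v * (2 * ∑ i, a i * b (c + v + i)) = 2 * ∑ v, e v * ∑ i, a i * b (c + v + i) := by
      rw [Finset.mul_sum]
      refine Finset.sum_congr rfl fun v _ => ?_
      ring
    rw [h4, h2, h3]
    ring
  have hconst : ∀ c, n c = n 0 := by
    intro c
    have h1 : 2 * α * n c = 2 * α * n 0 := by rw [hF1, hF1]
    exact mul_left_cancel₀ (mul_ne_zero (by norm_num) hα) h1
  have hF2 : (m : ℤ) * n 0 = κ * β := by
    have h1 : ∑ c, n c = (m : ℤ) * n 0 := by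
      rw [Finset.sum_congr rfl fun c _ => hconst c, DS.sum_card]
    have h2 : ∑ c, n c = κ * β := by
      simp only [hn]
      rw [Finset.sum_comm, ← heκ, Finset.sum_mul]
      refine Finset.sum_congr rfl fun v _ => ?_
      rw [← Finset.mul_sum]
      congr 1
      exact DS.sum_add_const b v
    rw [← h1, h2]
  have hF3 : α ^ 2 + β * n 0 = κ * lam + (α + β - lam) := by
    have h1 := D.sum_mul_F e
    rw [heκ, he, tor_zero, one_mul, ← he, ← hαd, ← hβd] at h1
    rw [← h1]
    have h2 : ∑ j, e j * ∑ i, a i * a (j - i) = α ^ 2 := by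
      rw [sum_swap, pow_two, hαd, Finset.sum_mul]
      refine Finset.sum_congr rfl fun i _ => ?_
      by_cases hi : a i = 0
      · rw [hi]; ring
      · congr 1
        refine Fintype.sum_equiv (Equiv.subRight i) _ _ ?_
        intro j
        simp only [Equiv.subRight_apply]
        by_cases hj : a (j - i) = 0
        · rw [hj]; ring
        · have h3 := hsupp _ hj
          have h4 := hsupp _ hi
          have h5 : κ • j = 0 := by
            have : j = (j - i) + i := by ring
            rw [this, nsmul_add, h3, h4, add_zero]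
          rw [he, tor_of h5, one_mul]
    have h3 : ∑ j, e j * ∑ i, b i * b (i + j) = β * n 0 := by
      rw [sum_swap, hβd, Finset.sum_mul]
      refine Finset.sum_congr rfl fun i _ => ?_
      rw [← hconst i]
    simp only [mul_add, Finset.sum_add_distrib]
    rw [h2, h3]
  have hκ0 : (κ : ℤ) ≠ 0 := by
    intro h
    have h1 : κ = 0 := by exact_mod_cast h
    rw [h1] at hm
    omega
  have hmc : (m : ℤ) = κ * m' := by rw [hm]; push_cast; ring
  have hβm : β = m' * n 0 := by
    apply mul_left_cancel₀ hκ0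
    rw [← hF2, hmc]
    ring
  have hkey : (β - 2 * α) * (n 0 - β) = 0 := by
    have h1 := hF1 0
    nlinarith
  have hne : n 0 - β ≠ 0 := by
    intro h
    have h1 : n 0 = β := by linarith
    have h2 : ((m' : ℤ) - 1) * β = 0 := by
      have : β = m' * β := by rw [← h1] at hβm ⊢; exact hβm
      linarith
    rcases mul_eq_zero.1 h2 with h3 | h3
    · have : (m' : ℤ) = 1 := by linarith
      have : m' = 1 := by exact_mod_cast this
      omega
    · exact hβ h3
  have hβ2 : β = 2 * α := by
    rcases mul_eq_zero.1 hkey with h | h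
    · linarith
    · exact absurd h hne
  rw [hβ2] at ht2 hmul
  have hlam : lam = 3 * α - α ^ 2 := by nlinarith
  have h4 : 4 * α = (m : ℤ) * (3 - α) := by
    apply mul_left_cancel₀ hα
    rw [hlam] at hmul
    nlinarith
  have hα1 : 0 < α := lt_of_le_of_ne hα0 (Ne.symm hα)
  have hm1 : (0 : ℤ) < m := by exact_mod_cast hm0
  have hlt : α < 3 := by
    by_contra h
    push Not at h
    have : (m : ℤ) * (3 - α) ≤ 0 := mul_nonpos_of_nonneg_of_nonpos hm1.le (by linarith)
    linarith
  have hcases : α = 1 ∨ α = 2 := by omega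
  rcases hcases with h | h
  · left
    rw [h] at h4
    have : (m : ℤ) = 2 := by linarith
    exact_mod_cast this
  · right
    rw [h] at h4
    have : (m : ℤ) = 8 := by linarith
    exact_mod_cast this

end DS

end

end Cfsg.Agent.Lib.DihS
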