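import Mathlib
import Cfsg.Agent.Lib.DihS5

/-!
Dihedral schemes: rotation orders a power of two.
-/

namespace Cfsg.Agent.Lib.DihS

open DihedralGroup

noncomputable section

variable {m : ℕ} [NeZero m]

lemma m8_core (c d b0 b1 b2 b3 b4 b5 b6 b7 lam : ℤ) (hc : c = 0 ∨ c = 1) (hd : d = 0 ∨ d = 1)
    (h0 : b0 = 0 ∨ b0 = 1) (h1 : b1 = 0 ∨ b1 = 1) (h2 : b2 = 0 ∨ b2 = 1) (h3 : b3 = 0 ∨ b3 = 1)
    (h4 : b4 = 0 ∨ b4 = 1) (h5 : b5 = 0 ∨ b5 = 1) (h6 : b6 = 0 ∨ b6 = 1) (h7 : b7 = 0 ∨ b7 = 1)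
    (hne : c ≠ 0 ∨ d ≠ 0)
    (e1 : 0 * c + c * 0 + d * c + c * d + 0 * c + c * 0 + d * c + c * d + (b0 * b1 + b1 * b2 + b2 * b3 + b3 * b4 + b4 * b5 + b5 * b6 + b6 * b7 + b7 * b0) = lam)
    (e2 : 0 * d + c * c + d * 0 + c * c + 0 * d + c * c + d * 0 + c * c + (b0 * b2 + b1 * b3 + b2 * b4 + b3 * b5 + b4 * b6 + b5 * b7 + b6 * b0 + b7 * b1) = lam)
    (e3 : 0 * c + c * d + d * c + c * 0 + 0 * c + c * d + d * c + c * 0 + (b0 * b3 + b1 * b4 + b2 * b5 + b3 * b6 + b4 * b7 + b5 * b0 + b6 * b1 + b7 * b2) = lam)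
    (e4 : 0 * 0 + c * c + d * d + c * c + 0 * 0 + c * c + d * d + c * c + (b0 * b4 + b1 * b5 + b2 * b6 + b3 * b7 + b4 * b0 + b5 * b1 + b6 * b2 + b7 * b3) = lam)
    : False := by
  rcases hc with rfl | rfl <;> rcases hd with rfl | rfl <;> rcases h0 with rfl | rfl <;>
    rcases h1 with rfl | rfl <;> rcases h2 with rfl | rfl <;> rcases h3 with rfl | rfl <;>
    rcases h4 with rfl | rfl <;> rcases h5 with rfl | rfl <;> rcases h6 with rfl | rfl <;>
    rcases h7 with rfl | rfl <;> omega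

namespace DS

variable {a b : ZMod m → ℤ} {lam : ℤ} (D : DS a b lam)
include D

lemma m8_contra (hm8 : m = 8)
    (hrat : ∀ i j : ZMod m, addOrderOf i = addOrderOf j → a i = a j)
    (ha2 : ∀ i : ZMod m, 2 • i = 0 → a i = 0) (hα : ∑ i, a i ≠ 0) : False := by
  subst hm8
  have hsum : ∀ f : ZMod 8 → ℤ, ∑ i, f i = f 0 + f 1 + f 2 + f 3 + f 4 + f 5 + f 6 + f 7 :=
    fun f => Fin.sum_univ_eight f
  have a0 : a 0 = 0 := ha2 0 (by decide)
  have a4 : a 4 = 0 := ha2 4 (by decide)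
  have ord : ∀ k : ℕ, addOrderOf ((k : ℕ) : ZMod 8) = 8 / Nat.gcd 8 k :=
    fun k => ZMod.addOrderOf_coe k (by norm_num)
  have o1 : addOrderOf (1 : ZMod 8) = 8 := by simpa using ord 1
  have o2 : addOrderOf (2 : ZMod 8) = 4 := by simpa using ord 2
  have o3 : addOrderOf (3 : ZMod 8) = 8 := by simpa using ord 3
  have o5 : addOrderOf (5 : ZMod 8) = 8 := by simpa using ord 5
  have o6 : addOrderOf (6 : ZMod 8) = 4 := by simpa using ord 6
  have o7 : addOrderOf (7 : ZMod 8) = 8 := by simpa using ord 7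
  have a3 : a 3 = a 1 := hrat _ _ (by rw [o3, o1])
  have a5 : a 5 = a 1 := hrat _ _ (by rw [o5, o1])
  have a7 : a 7 = a 1 := hrat _ _ (by rw [o7, o1])
  have a6 : a 6 = a 2 := hrat _ _ (by rw [o6, o2])
  have hne : a 1 ≠ 0 ∨ a 2 ≠ 0 := by
    by_contra h
    push Not at h
    apply hα
    rw [hsum, a0, a4, a3, a5, a7, a6, h.1, h.2]
    norm_num
  have e1 := D.h2 1 (by decide)
  rw [hsum, hsum] at e1
  change a 0 * a 1 + a 1 * a 0 + a 2 * a 7 + a 3 * a 6 + a 4 * a 5 + a 5 * a 4 + a 6 * a 3 + a 7 * a 2 + (b 0 * b 1 + b 1 * b 2 + b 2 * b 3 + b 3 * b 4 + b 4 * b 5 + b 5 * b 6 + b 6 * b 7 + b 7 * b 0) = lam at e1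
  have e2 := D.h2 2 (by decide)
  rw [hsum, hsum] at e2
  change a 0 * a 2 + a 1 * a 1 + a 2 * a 0 + a 3 * a 7 + a 4 * a 6 + a 5 * a 5 + a 6 * a 4 + a 7 * a 3 + (b 0 * b 2 + b 1 * b 3 + b 2 * b 4 + b 3 * b 5 + b 4 * b 6 + b 5 * b 7 + b 6 * b 0 + b 7 * b 1) = lam at e2
  have e3 := D.h2 3 (by decide)
  rw [hsum, hsum] at e3
  change a 0 * a 3 + a 1 * a 2 + a 2 * a 1 + a 3 * a 0 + a 4 * a 7 + a 5 * a 6 + a 6 * a 5 + a 7 * a 4 + (b 0 * b 3 + b 1 * b 4 + b 2 * b 5 + b 3 * b 6 + b 4 * b 7 + b 5 * b 0 + b 6 * b 1 + b 7 * b 2) = lam at e3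
  have e4 := D.h2 4 (by decide)
  rw [hsum, hsum] at e4
  change a 0 * a 4 + a 1 * a 3 + a 2 * a 2 + a 3 * a 1 + a 4 * a 0 + a 5 * a 7 + a 6 * a 6 + a 7 * a 5 + (b 0 * b 4 + b 1 * b 5 + b 2 * b 6 + b 3 * b 7 + b 4 * b 0 + b 5 * b 1 + b 6 * b 2 + b 7 * b 3) = lam at e4
  rw [a0, a3, a4, a5, a6, a7] at e1 e2 e3 e4
  exact m8_core (a 1) (a 2) (b 0) (b 1) (b 2) (b 3) (b 4) (b 5) (b 6) (b 7) lam (D.a01 1) (D.a01 2)
    (D.b01 0) (D.b01 1) (D.b01 2) (D.b01 3) (D.b01 4) (D.b01 5) (D.b01 6) (D.b01 7) hne e1 e2 e3 e4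

end DS

section twopow

lemma le_one_of_sq_le_one (x : ℤ) (h : x ^ 2 ≤ 1) : x ≤ 1 := by
  nlinarith

lemma ord_dvd (v : ZMod m) : addOrderOf v ∣ m := by
  apply addOrderOf_dvd_of_nsmul_eq_zero
  rw [nsmul_eq_mul, ZMod.natCast_self, zero_mul]

lemma ord_pow {E : ℕ} (hm : m = 2 ^ E) (v : ZMod m) : ∃ c, c ≤ E ∧ addOrderOf v = 2 ^ c :=
  (Nat.dvd_prime_pow Nat.prime_two).1 ((ord_dvd v).trans (dvd_of_eq hm))

lemma nsmul_of_dvd {A : Type} [AddCommMonoid A] {a b : ℕ} {x : A} (h : a ∣ b) (ha : a • x = 0) :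
    b • x = 0 := by
  obtain ⟨k, rfl⟩ := h
  rw [mul_nsmul, ha, nsmul_zero]

lemma ord_add_of_not_tor {E t : ℕ} (hm : m = 2 ^ E) {u v : ZMod m} (hu : (2 ^ t) • u = 0)
    (hv : (2 ^ t) • v ≠ 0) : addOrderOf (v + u) = addOrderOf v := by
  obtain ⟨c, -, hc⟩ := ord_pow hm v
  obtain ⟨c', -, hc'⟩ := ord_pow hm (v + u)
  have hvc : (2 ^ c) • v = 0 := by rw [← hc]; exact addOrderOf_nsmul_eq_zero v
  have htc : t < c := by
    by_contra h
    push Not at h
    exact hv (nsmul_of_dvd (pow_dvd_pow 2 h) hvc)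
  have h1 : (2 ^ c) • (v + u) = 0 := by
    rw [nsmul_add, hvc, nsmul_of_dvd (pow_dvd_pow 2 htc.le) hu, add_zero]
  have h2 : c' ≤ c := by
    have := addOrderOf_dvd_of_nsmul_eq_zero h1
    rw [hc'] at this
    exact (Nat.pow_dvd_pow_iff_le_right (by norm_num)).1 this
  have h3 : c ≤ c' := by
    by_contra h
    push Not at h
    have h4 : (2 ^ (c - 1)) • (v + u) = 0 := by
      apply nsmul_of_dvd (pow_dvd_pow 2 (by omega : c' ≤ c - 1))
      rw [← hc']; exact addOrderOf_nsmul_eq_zero _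
    rw [nsmul_add, nsmul_of_dvd (pow_dvd_pow 2 (by omega : t ≤ c - 1)) hu, add_zero] at h4
    have h5 := addOrderOf_dvd_of_nsmul_eq_zero h4
    rw [hc] at h5
    have := (Nat.pow_dvd_pow_iff_le_right (by norm_num)).1 h5
    omega
  rw [hc, hc', le_antisymm h2 h3]

lemma two_pow_core (ν : ℕ) (y y' t : ℤ) (hy' : Odd y') (h1 : 1 ≤ y) (h2 : y < 2 ^ ν)
    (heq : 2 * y * y' = 2 ^ ν * (y + y' - t)) : 2 * y = 2 ^ ν ∧ y = t := by
  have hco : IsCoprime ((2 : ℤ) ^ ν) y' := by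
    apply IsCoprime.pow_left
    obtain ⟨c, hc⟩ := hy'
    exact ⟨-c, 1, by rw [hc]; ring⟩
  have hd : (2 : ℤ) ^ ν ∣ 2 * y := by
    have : (2 : ℤ) ^ ν ∣ (2 * y) * y' := ⟨_, heq⟩
    exact hco.dvd_of_dvd_mul_right this
  obtain ⟨c, hc⟩ := hd
  have hpos : (0 : ℤ) < 2 ^ ν := by positivity
  have hc0 : 0 < c := by
    by_contra h
    push Not at h
    have := mul_nonpos_of_nonneg_of_nonpos hpos.le h
    linarith
  have hc2 : c < 2 := by
    by_contra h
    push Not at h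
    have := mul_le_mul_of_nonneg_left h hpos.le
    linarith
  have hc1 : c = 1 := by omega
  rw [hc1, mul_one] at hc
  refine ⟨hc, ?_⟩
  rw [← hc] at heq
  have hy0 : (2 * y) ≠ 0 := by omega
  have := mul_left_cancel₀ hy0 (show 2 * y * y' = 2 * y * (y + y' - t) from heq)
  linarith

lemma two_pow_arith (ν : ℕ) (x x' t : ℤ) (hx : 1 ≤ x) (hx' : 1 ≤ x') (hxN : x < 2 ^ ν)
    (hxN' : x' < 2 ^ ν) (hdiff : x' = x + 1 ∨ x = x' + 1)
    (heq : 2 * x * x' = 2 ^ ν * (x + x' - t)) :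
    (2 : ℤ) ^ ν = 2 * t ∧ (x = t ∨ x' = t) := by
  by_cases hev : Even x
  · have hodd : Odd x' := by
      rcases hdiff with h | h
      · rw [h]; exact hev.add_one
      · by_contra h2
        rw [Int.not_odd_iff_even] at h2
        rw [h] at hev
        exact (Int.not_even_iff_odd.2 h2.add_one) hev
    obtain ⟨h1, h2⟩ := two_pow_core ν x x' t hodd hx hxN heq
    exact ⟨by rw [← h1, h2], Or.inl h2⟩
  · rw [Int.not_even_iff_odd] at hev
    have hev' : Odd x := hev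
    obtain ⟨h1, h2⟩ := two_pow_core ν x' x t hev' hx' hxN' (by linarith)
    exact ⟨by rw [← h1, h2], Or.inr h2⟩

variable (h2m : 2 ∣ m)

/-- The index-two character of `ZMod m`. -/
def chi (i : ZMod m) : ℤ := if ZMod.castHom h2m (ZMod 2) i = 0 then 1 else -1

lemma chi_add (i j : ZMod m) : chi h2m (i + j) = chi h2m i * chi h2m j := by
  unfold chi
  rw [map_add]
  have key : ∀ x y : ZMod 2, (if x + y = 0 then (1 : ℤ) else -1)
      = (if x = 0 then 1 else -1) * (if y = 0 then 1 else -1) := by decide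
  exact key _ _

lemma chi_sq (i : ZMod m) : chi h2m i * chi h2m i = 1 := by
  unfold chi
  split_ifs <;> norm_num

lemma chi_zero : chi h2m (0 : ZMod m) = 1 := by
  unfold chi
  rw [map_zero, if_pos rfl]

lemma chi_one : chi h2m (1 : ZMod m) = -1 := by
  unfold chi
  rw [map_one, if_neg (by decide)]

lemma sum_chi : ∑ i, chi h2m (i : ZMod m) = 0 := by
  have h1 : ∑ i, chi h2m (i + 1 : ZMod m) = ∑ i, chi h2m (i : ZMod m) :=
    DS.sum_add_const _ 1
  simp only [chi_add, chi_one] at h1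
  rw [← Finset.sum_mul] at h1
  linarith

lemma ord_of_chi {E : ℕ} (hm : m = 2 ^ E) {i : ZMod m} (hi : chi h2m i = -1) :
    addOrderOf i = m := by
  have hi' : ZMod.castHom h2m (ZMod 2) i ≠ 0 := by
    intro h
    unfold chi at hi
    rw [if_pos h] at hi
    norm_num at hi
  have hv : (i.val : ZMod m) = i := ZMod.natCast_zmod_val i
  have h0 : ZMod.castHom h2m (ZMod 2) ((i.val : ℕ) : ZMod m) = ((i.val : ℕ) : ZMod 2) :=
    map_natCast _ _
  rw [hv] at h0
  rw [h0] at hi'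
  have h3 : ¬ 2 ∣ i.val := fun h => hi' ((ZMod.natCast_eq_zero_iff _ _).2 h)
  have hco : Nat.Coprime (2 ^ E) i.val :=
    Nat.Coprime.pow_left E ((Nat.Prime.coprime_iff_not_dvd Nat.prime_two).2 h3)
  rw [← hm] at hco
  have h4 := ZMod.addOrderOf_coe i.val (NeZero.ne m)
  rw [hv, hco.gcd_eq_one, Nat.div_one] at h4
  exact h4

end twopow

namespace DS

variable {a b : ZMod m → ℤ} {lam : ℤ} (D : DS a b lam)
include D

lemma sum_chi_sq (h2m : 2 ∣ m) :
    (∑ i, a i * chi h2m i) ^ 2 + (∑ i, b i * chi h2m i) ^ 2 = (∑ i, a i) + (∑ i, b i) - lam := by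
  have h1 := D.sum_mul_F (chi h2m)
  rw [sum_chi, zero_mul, zero_add, chi_zero, one_mul] at h1
  rw [← h1]
  simp only [mul_add, Finset.sum_add_distrib]
  congr 1
  · rw [sum_swap, pow_two, Finset.sum_mul]
    refine Finset.sum_congr rfl fun i _ => ?_
    rw [mul_assoc]
    congr 1
    have h2 : ∀ j, chi h2m j * a (j - i) = chi h2m i * (a (j - i) * chi h2m (j - i)) := by
      intro j
      have h3 : chi h2m j = chi h2m i * chi h2m (j - i) := by
        rw [← chi_add]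
        congr 1
        ring
      rw [h3]
      ring
    simp only [h2]
    rw [← Finset.mul_sum]
    congr 1
    exact (Fintype.sum_equiv (Equiv.subRight i) _ _ (fun _ => rfl)).symm
  · rw [sum_swap, pow_two, Finset.sum_mul]
    refine Finset.sum_congr rfl fun i _ => ?_
    rw [mul_assoc]
    congr 1
    have h2 : ∀ j, chi h2m j * b (i + j) = chi h2m i * (b (i + j) * chi h2m (i + j)) := by
      intro j
      rw [chi_add]
      have h3 := chi_sq h2m i
      linear_combination (-(chi h2m j * b (i + j))) * h3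
    simp only [h2]
    rw [← Finset.mul_sum]
    congr 1
    exact (Fintype.sum_equiv (Equiv.addLeft i) _ _ (fun _ => rfl)).symm

set_option maxHeartbeats 2000000 in
/-- Difference sets in the dihedral group of `2`-power order with rational rotation part. -/
lemma two_power_contra {E : ℕ} (hm : m = 2 ^ E)
    (hrat : ∀ i j : ZMod m, addOrderOf i = addOrderOf j → a i = a j)
    (ha2 : ∀ i : ZMod m, 2 • i = 0 → a i = 0)
    (hα : ∑ i, a i ≠ 0) (hβ : ∑ i, b i ≠ 0) (hβ' : ∑ i, b i ≠ m) : False := by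
  classical
  have hm0 : 0 < m := Nat.pos_of_ne_zero (NeZero.ne m)
  obtain ⟨i₁, -, hi₁⟩ := Finset.exists_ne_zero_of_sum_ne_zero hα
  have hP : ∃ n, ∃ i, a i ≠ 0 ∧ addOrderOf i = n := ⟨_, i₁, hi₁, rfl⟩
  obtain ⟨i₀, hi₀, hord⟩ := Nat.find_spec hP
  have hmin : ∀ i, a i ≠ 0 → addOrderOf i₀ ≤ addOrderOf i := by
    intro i hi
    rw [hord]
    exact Nat.find_min' hP ⟨i, hi, rfl⟩
  obtain ⟨u, -, hu⟩ := ord_pow hm i₀
  have hu2 : 2 ≤ u := by
    by_contra h
    push Not at h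
    apply hi₀
    apply ha2
    have h1 : addOrderOf i₀ ∣ 2 := by
      rw [hu]
      exact (pow_dvd_pow 2 (by omega : u ≤ 1)).trans (by norm_num)
    exact nsmul_of_dvd h1 (addOrderOf_nsmul_eq_zero i₀)
  obtain ⟨s, rfl⟩ : ∃ s, u = s + 1 := ⟨u - 1, by omega⟩
  have hs1 : 1 ≤ s := by omega
  have hst : ∀ x : ZMod m, (2 ^ s) • x = 0 → (2 ^ (s + 1)) • x = 0 :=
    fun x hx => nsmul_of_dvd (pow_dvd_pow 2 (by omega)) hx
  have hO1 : ∀ v : ZMod m, (2 ^ s) • v = 0 → a v = 0 := by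
    intro v hv
    by_contra h
    have h1 := hmin v h
    have h2 : addOrderOf v ∣ 2 ^ s := addOrderOf_dvd_of_nsmul_eq_zero hv
    have h3 := Nat.le_of_dvd (by positivity) h2
    rw [hu, pow_succ] at h1
    have : 0 < 2 ^ s := by positivity
    omega
  have hai₀ : a i₀ = 1 := (D.a01 i₀).resolve_left hi₀
  have hO2 : ∀ v : ZMod m, (2 ^ (s + 1)) • v = 0 → (2 ^ s) • v ≠ 0 → a v = 1 := by
    intro v hv hv'
    obtain ⟨c, -, hc⟩ := ord_pow hm v
    have h1 : addOrderOf v ∣ 2 ^ (s + 1) := addOrderOf_dvd_of_nsmul_eq_zero hv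
    rw [hc] at h1
    have h2 : c ≤ s + 1 := (Nat.pow_dvd_pow_iff_le_right (by norm_num)).1 h1
    have h3 : c = s + 1 := by
      by_contra h
      apply hv'
      apply nsmul_of_dvd (pow_dvd_pow 2 (by omega : c ≤ s))
      rw [← hc]; exact addOrderOf_nsmul_eq_zero v
    rw [← hai₀]
    apply hrat
    rw [hc, hu, h3]
  have hO3 : ∀ v w : ZMod m, (2 ^ (s + 1)) • w = 0 → (2 ^ (s + 1)) • v ≠ 0 → a (v + w) = a v := by
    intro v w hw hv
    exact hrat _ _ (ord_add_of_not_tor hm hw hv)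
  have hi₀τ' : (2 ^ (s + 1)) • i₀ = 0 := by
    rw [← hu]; exact addOrderOf_nsmul_eq_zero i₀
  have hi₀τ : (2 ^ s) • i₀ ≠ 0 := by
    intro h
    have h1 := addOrderOf_dvd_of_nsmul_eq_zero h
    rw [hu] at h1
    have := (Nat.pow_dvd_pow_iff_le_right (by norm_num)).1 h1
    omega
  have hτ'm : 2 ^ (s + 1) ∣ m := by
    rw [← hu]; exact ord_dvd i₀
  have hτm : 2 ^ s ∣ m := (pow_dvd_pow 2 (by omega)).trans hτ'm
  have hα0 := D.sum_a_nonneg
  have hβ0 := D.sum_b_nonneg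
  have hα1 := D.sum_a_le
  have hβ1 := D.sum_b_le
  have hmul := D.mul_eq
  have ht2 := D.t2
  have hchi := D.sum_chi_sq
  set α := ∑ i, a i with hαd
  set β := ∑ i, b i with hβd
  set e := tor (m := m) (2 ^ s) with he
  have heτ : ∑ v, e v = ((2 ^ s : ℕ) : ℤ) := sum_tor hτm
  have he0 : e 0 = 1 := tor_zero _
  set T : ℤ := ((2 ^ s : ℕ) : ℤ) with hT
  set g : ZMod m → ℤ := fun i => a i + e i with hg
  have hgL : ∀ i, (2 ^ (s + 1)) • i = 0 → g i = 1 := by
    intro i hi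
    simp only [hg]
    by_cases h : (2 ^ s) • i = 0
    · rw [hO1 i h, he, tor_of h]; norm_num
    · rw [hO2 i hi h, he, tor_of_not h]; norm_num
  have hgper : ∀ u, (2 ^ (s + 1)) • u = 0 → ∀ i, g (i + u) = g i := by
    intro u hu i
    by_cases hi : (2 ^ (s + 1)) • i = 0
    · rw [hgL i hi, hgL (i + u) (by rw [nsmul_add, hi, hu, add_zero])]
    · have hi' : (2 ^ (s + 1)) • (i + u) ≠ 0 := by rwa [nsmul_add, hu, add_zero]
      simp only [hg]
      rw [hO3 i u hu hi, he, tor_of_not (fun h => hi (hst i h)),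
        tor_of_not (fun h => hi' (hst _ h))]
  set n : ZMod m → ℤ := fun c => ∑ v, e v * b (c + v) with hn
  have hG : ∀ c, 2 * ∑ i, g i * b (c + i) = lam + 2 * n c := by
    intro c
    have : ∑ i, g i * b (c + i) = ∑ i, a i * b (c + i) + n c := by
      simp only [hg, hn, add_mul, Finset.sum_add_distrib]
    rw [this, mul_add, D.h1']
  have hnper : ∀ c u, (2 ^ (s + 1)) • u = 0 → n (c + u) = n c := by
    intro c u hu
    have h1 := hG (c + u)
    have h2 := hG c
    have h3 : ∑ i, g i * b (c + u + i) = ∑ i, g i * b (c + i) := by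
      refine Fintype.sum_equiv (Equiv.addRight u) _ _ ?_
      intro i
      simp only [Equiv.coe_addRight]
      rw [hgper u hu]
      congr 2
      ring
    rw [h3] at h1
    linarith
  set AL : ZMod m → ℤ := fun t => ∑ j, e j * a (j + t) with hAL
  have hee : ∀ t, ∑ j, e j * e (j + t) = T * e t := by
    intro t
    by_cases ht : (2 ^ s) • t = 0
    · have h1 : ∀ j, e j * e (j + t) = e j := by
        intro j
        rw [he, tor_add_right ht]
        rcases tor_01 (2 ^ s) j with h | h <;> simp [h]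
      simp only [h1]
      rw [heτ, he, tor_of ht, mul_one]
    · rw [he, tor_of_not ht, mul_zero]
      apply Finset.sum_eq_zero
      intro j _
      by_cases hj : (2 ^ s) • j = 0
      · rw [tor_of_not (v := j + t) (by rwa [nsmul_add, hj, zero_add]), mul_zero]
      · rw [tor_of_not hj, zero_mul]
  have hALg : ∀ t, AL t + T * e t = ∑ j, e j * g (j + t) := by
    intro t
    simp only [hg, hAL, mul_add, Finset.sum_add_distrib]
    rw [hee]
  have hALper : ∀ t u, (2 ^ (s + 1)) • u = 0 → AL (t + u) + T * e (t + u) = AL t + T * e t := by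
    intro t u hu
    rw [hALg, hALg]
    refine Finset.sum_congr rfl fun j _ => ?_
    rw [← add_assoc, hgper u hu]
  have hT0 : ∑ j, e j * ∑ i, a i * a (j - i) = ∑ i, a i * AL (-i) := by
    rw [sum_swap]
    refine Finset.sum_congr rfl fun i _ => ?_
    simp only [hAL, sub_eq_add_neg]
  have hT1 : ∑ j, e j * ∑ i, a i * a (j + i₀ - i) = ∑ i, a i * AL (i₀ - i) := by
    rw [sum_swap]
    refine Finset.sum_congr rfl fun i _ => ?_
    simp only [hAL]
    congr 1
    refine Finset.sum_congr rfl fun j _ => ?_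
    congr 2
    ring
  have hdiff : ∀ i, AL (-i) - AL (i₀ - i) = T * (e (i₀ - i) - e (-i)) := by
    intro i
    have h1 := hALper (-i) i₀ hi₀τ'
    rw [show -i + i₀ = i₀ - i by ring] at h1
    linarith
  have hsum1 : ∑ i, a i * e (-i) = 0 := by
    apply Finset.sum_eq_zero
    intro i _
    rw [he, tor_neg]
    by_cases h : (2 ^ s) • i = 0
    · rw [hO1 i h, zero_mul]
    · rw [tor_of_not h, mul_zero]
  have hsum2 : ∑ i, a i * e (i₀ - i) = T := by
    rw [← heτ, ← DS.sum_const_sub e i₀]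
    refine Finset.sum_congr rfl fun i _ => ?_
    by_cases h : (2 ^ s) • (i₀ - i) = 0
    · have h1 : (2 ^ s) • i ≠ 0 := by
        intro h2
        apply hi₀τ
        have : i₀ = (i₀ - i) + i := by ring
        rw [this, nsmul_add, h, h2, add_zero]
      have h2 : (2 ^ (s + 1)) • i = 0 := by
        have : i = i₀ - (i₀ - i) := by ring
        rw [this, nsmul_sub, hi₀τ', hst _ h, sub_zero]
      rw [hO2 i h2 h1, one_mul]
    · rw [he, tor_of_not h, mul_zero]
  have hTdiff : ∑ i, a i * AL (-i) - ∑ i, a i * AL (i₀ - i) = T ^ 2 := by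
    rw [← Finset.sum_sub_distrib]
    have h1 : ∀ i, a i * AL (-i) - a i * AL (i₀ - i) = T * (a i * e (i₀ - i) - a i * e (-i)) := by
      intro i
      rw [← mul_sub, hdiff]
      ring
    simp only [h1]
    rw [← Finset.mul_sum, Finset.sum_sub_distrib, hsum1, hsum2]
    ring
  have hR0 : ∑ j, e j * ∑ i, b i * b (i + j) = ∑ i, b i * n i := sum_swap _ _ _
  have hR1 : ∑ j, e j * ∑ i, b i * b (i + (j + i₀)) = ∑ i, b i * n i := by
    rw [sum_swap]
    refine Finset.sum_congr rfl fun i _ => ?_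
    rw [← hnper i i₀ hi₀τ']
    simp only [hn]
    congr 1
    refine Finset.sum_congr rfl fun j _ => ?_
    congr 2
    ring
  have hF0 : ∑ j, e j * ∑ i, a i * a (j - i) + ∑ j, e j * ∑ i, b i * b (i + j)
      = T * lam + (α + β - lam) := by
    have h1 := D.sum_mul_F e
    rw [heτ, he0, one_mul, ← hαd, ← hβd] at h1
    rw [← h1, ← Finset.sum_add_distrib]
    simp only [mul_add]
  have hF1 : ∑ j, e j * ∑ i, a i * a (j + i₀ - i) + ∑ j, e j * ∑ i, b i * b (i + (j + i₀))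
      = T * lam := by
    have h1 := D.sum_mul_F' e i₀ (by
      intro j hj
      rw [he, tor_of_not]
      intro h
      apply hi₀τ
      have : i₀ = -j := by
        have h2 : i₀ = (j + i₀) - j := by ring
        rw [h2, hj, zero_sub]
      rw [this, smul_neg, h, neg_zero])
    rw [heτ] at h1
    rw [← h1, ← Finset.sum_add_distrib]
    simp only [mul_add]
  rw [hT0, hR0] at hF0
  rw [hT1, hR1] at hF1
  have hsq : T ^ 2 = α + β - lam := by linarith
  have hτ2 : (2 : ℕ) ^ 1 ≤ 2 ^ s := Nat.pow_le_pow_right (by norm_num) hs1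
  have hT2 : 2 ≤ T := by
    have : ((2 ^ 1 : ℕ) : ℤ) ≤ T := Nat.cast_le.2 hτ2
    simpa using this
  have hT0' : T ≠ 0 := by omega
  -- divisibility
  have hper_a : ∀ u, (2 ^ s) • u = 0 → ∀ i, a (i + u) = a i := by
    intro u hu i
    have h1 := hgper u (hst u hu) i
    simp only [hg] at h1
    rw [he, tor_add_right hu] at h1
    linarith
  have hdα : T ∣ α := by
    have hmd : m = (m / 2 ^ s) * 2 ^ s := (Nat.div_mul_cancel hτm).symm
    have h1 : (2 ^ s) • (((m / 2 ^ s : ℕ)) : ZMod m) = 0 := by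
      rw [nsmul_eq_mul, ← Nat.cast_mul, Nat.mul_div_cancel' hτm]
      exact ZMod.natCast_self m
    have h2 := sum_periodic hmd a (hper_a _ h1)
    rw [hαd, h2, nsmul_eq_mul, hT]
    exact Dvd.intro _ rfl
  obtain ⟨x, hx⟩ := hdα
  have hcases : β = α - T ∨ β = α + T := by
    have h1 : (α - β - T) * (α - β + T) = 0 := by linear_combination ht2 - hsq
    rcases mul_eq_zero.1 h1 with h | h
    · left; linarith
    · right; linarith
  have hβx : ∃ x' : ℤ, β = T * x' ∧ (x' = x + 1 ∨ x = x' + 1) := by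
    rcases hcases with h | h
    · exact ⟨x - 1, by rw [h, hx]; ring, Or.inr (by ring)⟩
    · exact ⟨x + 1, by rw [h, hx]; ring, Or.inl rfl⟩
  obtain ⟨x', hx', hdiffx⟩ := hβx
  have hTpos : 0 < T := by omega
  have hsE : s ≤ E := by
    have hm' : 2 ^ s ∣ 2 ^ E := hτm.trans (dvd_of_eq hm)
    exact (Nat.pow_dvd_pow_iff_le_right (by norm_num)).1 hm'
  have hmT : (m : ℤ) = T * 2 ^ (E - s) := by
    have h1 : m = 2 ^ s * 2 ^ (E - s) := by
      rw [← pow_add, hm]
      congr 1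
      omega
    rw [hT]
    have h2 := congrArg (fun z : ℕ => (z : ℤ)) h1
    simpa using h2
  set ν := E - s with hν
  have hlam : lam = α + β - T ^ 2 := by linarith
  have heq : 2 * x * x' = 2 ^ ν * (x + x' - T) := by
    have h1 : T ^ 2 * (2 * x * x') = T ^ 2 * (2 ^ ν * (x + x' - T)) := by
      have h2 : T ^ 2 * (2 * x * x') = 2 * α * β := by rw [hx, hx']; ring
      rw [h2, hmul, hmT, hlam, hx, hx']
      ring
    exact mul_left_cancel₀ (pow_ne_zero 2 hT0') h1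
  have hαpos : 0 < α := lt_of_le_of_ne hα0 (Ne.symm hα)
  have hβpos : 0 < β := lt_of_le_of_ne hβ0 (Ne.symm hβ)
  have hx1 : 1 ≤ x := by
    by_contra h
    push Not at h
    have : T * x ≤ 0 := mul_nonpos_of_nonneg_of_nonpos hTpos.le (by omega)
    rw [← hx] at this
    omega
  have hx'1 : 1 ≤ x' := by
    by_contra h
    push Not at h
    have : T * x' ≤ 0 := mul_nonpos_of_nonneg_of_nonpos hTpos.le (by omega)
    rw [← hx'] at this
    omega
  have hαlt : α < m := by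
    have h1 : α < ∑ _i : ZMod m, (1 : ℤ) := by
      rw [hαd]
      apply Finset.sum_lt_sum (fun i _ => D.a_le i)
      refine ⟨0, Finset.mem_univ _, ?_⟩
      rw [ha2 0 (by simp)]
      norm_num
    rw [DS.sum_card] at h1
    linarith
  have hβlt : β < m := lt_of_le_of_ne hβ1 hβ'
  have hxN : x < 2 ^ ν := by
    rw [hx, hmT] at hαlt
    exact lt_of_mul_lt_mul_left hαlt hTpos.le
  have hx'N : x' < 2 ^ ν := by
    rw [hx', hmT] at hβlt
    exact lt_of_mul_lt_mul_left hβlt hTpos.le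
  obtain ⟨hN, hxt⟩ := two_pow_arith ν x x' T hx1 hx'1 hxN hx'N hdiffx heq
  -- the index two character
  have h2m : 2 ∣ m := (dvd_pow_self 2 (by omega : s + 1 ≠ 0)).trans hτ'm
  have hAchi : ∑ i, a i * chi h2m i = α - a 1 * m := by
    have h1 : ∀ i, a i * chi h2m i = a i - a 1 * (1 - chi h2m i) := by
      intro i
      unfold chi
      by_cases hi : ZMod.castHom h2m (ZMod 2) i = 0
      · rw [if_pos hi]; ring
      · rw [if_neg hi]
        have h2 : chi h2m i = -1 := by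
          unfold chi
          rw [if_neg hi]
        have h3 := ord_of_chi h2m hm h2
        have h4 : a i = a 1 := hrat _ _ (by rw [h3, ZMod.addOrderOf_one])
        rw [h4]
        ring
    simp only [h1]
    rw [Finset.sum_sub_distrib, ← Finset.mul_sum, Finset.sum_sub_distrib, sum_chi, DS.sum_card]
    ring
  have hchi' : (α - a 1 * m) ^ 2 ≤ T ^ 2 := by
    have h1 := hchi h2m
    rw [hAchi, ← hsq] at h1
    have h2 := sq_nonneg (∑ i, b i * chi h2m i)
    linarith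
  have hT2' : T = 2 := by
    rcases D.a01 1 with h1 | h1
    · rw [h1, zero_mul, sub_zero, hx, mul_pow] at hchi'
      have h3 : x ^ 2 ≤ 1 := by
        have h4 : 0 < T ^ 2 := by positivity
        have h5 : T ^ 2 * x ^ 2 ≤ T ^ 2 * 1 := by linarith
        exact le_of_mul_le_mul_left h5 h4
      have h4 : x ≤ 1 := le_one_of_sq_le_one x h3
      omega
    · rw [h1, one_mul, hx, hmT, hN] at hchi'
      have h3 : (x - 2 * T) ^ 2 ≤ 1 := by
        have h4 : 0 < T ^ 2 := by positivity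
        have h5 : T ^ 2 * (x - 2 * T) ^ 2 ≤ T ^ 2 * 1 := by
          calc T ^ 2 * (x - 2 * T) ^ 2 = (T * x - T * (2 * T)) ^ 2 := by ring
            _ ≤ T ^ 2 * 1 := by linarith
        exact le_of_mul_le_mul_left h5 h4
      have h4 : 2 * T - x ≤ 1 := le_one_of_sq_le_one _ (by
        calc (2 * T - x) ^ 2 = (x - 2 * T) ^ 2 := by ring
          _ ≤ 1 := h3)
      rw [hN] at hxN
      omega
  have hm8 : m = 8 := by
    have h1 : (m : ℤ) = 8 := by rw [hmT, hN, hT2']; norm_num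
    exact_mod_cast h1
  exact D.m8_contra hm8 hrat ha2 hα

end DS

end

end Cfsg.Agent.Lib.DihS
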