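import Mathlib
import Cfsg.Agent.Lib.DihS6

/-!
Dihedral schemes: every rational scheme is trivial.
-/

namespace Cfsg.Agent.Lib.DihS

open DihedralGroup

noncomputable section

variable {m : ℕ} [NeZero m]

lemma coeff_mul_const_left (f y : Alg ℤ m) {l : ℤ} (hf : ∀ w, w ≠ 1 → f.coeff w = l)
    (g : DihedralGroup m) : (f * y).coeff g = l * Scheme.aug y + (f.coeff 1 - l) * y.coeff g := by
  classical
  rw [coeff_mul_eq]
  have h1 : ∀ u, f.coeff u * y.coeff (u⁻¹ * g)
      = l * y.coeff (u⁻¹ * g) + (if u = 1 then (f.coeff 1 - l) * y.coeff (u⁻¹ * g) else 0) := by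
    intro u
    by_cases hu : u = 1
    · rw [if_pos hu, hu]; ring
    · rw [if_neg hu, hf u hu]; ring
  simp only [h1]
  rw [Finset.sum_add_distrib, ← Finset.mul_sum, Finset.sum_ite_eq' Finset.univ (1 : DihedralGroup m)]
  simp only [Finset.mem_univ, if_true, inv_one, one_mul]
  congr 2
  exact Fintype.sum_equiv ((Equiv.inv _).trans (Equiv.mulRight g)) _ _ (fun _ => rfl)

lemma coeff_mul_const_right (x f : Alg ℤ m) {l : ℤ} (hf : ∀ w, w ≠ 1 → f.coeff w = l)
    (g : DihedralGroup m) : (x * f).coeff g = l * Scheme.aug x + (f.coeff 1 - l) * x.coeff g := by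
  classical
  rw [coeff_mul_eq]
  have h1 : ∀ u, x.coeff u * f.coeff (u⁻¹ * g)
      = l * x.coeff u + (if u = g then (f.coeff 1 - l) * x.coeff u else 0) := by
    intro u
    by_cases hu : u = g
    · rw [if_pos hu, hu, inv_mul_cancel]; ring
    · rw [if_neg hu, hf _ (by
        intro h
        apply hu
        exact (inv_mul_eq_one.1 h))]
      ring
  simp only [h1]
  rw [Finset.sum_add_distrib, ← Finset.mul_sum, Finset.sum_ite_eq' Finset.univ g]
  simp only [Finset.mem_univ, if_true]
  rfl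

lemma exists_odd_prime_of_not {n : ℕ} (hn : n ≠ 0) (h4 : ¬ 4 ∣ n) (h2 : ¬ n ∣ 2) :
    ∃ p, p.Prime ∧ p ≠ 2 ∧ p ∣ n := by
  obtain ⟨k, n', hodd, hk⟩ := Nat.exists_eq_two_pow_mul_odd hn
  by_cases h1 : n' = 1
  · exfalso
    subst h1
    rw [mul_one] at hk
    by_cases hk2 : k ≤ 1
    · apply h2
      rw [hk]
      exact (pow_dvd_pow 2 hk2).trans (by norm_num)
    · apply h4
      rw [hk]
      have h5 : (2 : ℕ) ^ 2 ∣ 2 ^ k := pow_dvd_pow 2 (by omega : 2 ≤ k)
      exact h5
  · obtain ⟨p, hp, hpn⟩ := Nat.exists_prime_and_dvd h1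
    refine ⟨p, hp, ?_, hpn.trans ⟨2 ^ k, by rw [hk]; ring⟩⟩
    rintro rfl
    exact (Nat.not_even_iff_odd.2 hodd) (even_iff_two_dvd.2 hpn)

/-- Sum of an indicator is nonzero when the set is hit. -/
lemma sum_ne_zero_of_one {f : ZMod m → ℤ} (h0 : ∀ i, 0 ≤ f i) {i : ZMod m}
    (hi : f i = 1) : ∑ i, f i ≠ 0 := by
  have h1 : f i ≤ ∑ j, f j := Finset.single_le_sum (fun j _ => h0 j) (Finset.mem_univ i)
  omega

namespace Scheme

variable (S : Scheme m)

variable (hrat : ∀ i j : ZMod m, addOrderOf i = addOrderOf j → S.rel (r i) (r j))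
include hrat

lemma rel_odd {p q : ℕ} (hp : p.Prime) (hq : q.Prime) (hp2 : p ≠ 2) (hq2 : q ≠ 2) {i i' : ZMod m}
    (hi : p ∣ addOrderOf i) (hi' : q ∣ addOrderOf i') : S.rel (r i) (r i') := by
  have : Fact p.Prime := ⟨hp⟩
  have : Fact q.Prime := ⟨hq⟩
  have hpm : p ∣ m := hi.trans (ord_dvd i)
  have hqm : q ∣ m := hi'.trans (ord_dvd i')
  have h1 := S.star hrat hp2 hpm hi
  have h2 := S.star hrat hq2 hqm hi'
  by_cases hpq : p = q
  · subst hpq
    exact S.trans h1 (S.symm h2)
  · have hco : (addOrderOf (wp m p)).Coprime (addOrderOf (wp m q)) := by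
      rw [addOrderOf_wp hpm, addOrderOf_wp hqm]
      exact (Nat.coprime_primes hp hq).2 hpq
    have h3 := (AddCommute.all (wp m p) (wp m q)).addOrderOf_add_eq_mul_addOrderOf_of_coprime hco
    rw [addOrderOf_wp hpm, addOrderOf_wp hqm] at h3
    have h4 : S.rel (r (wp m p + wp m q)) (r (wp m p)) :=
      S.star hrat hp2 hpm (by rw [h3]; exact Dvd.intro _ rfl)
    have h5 : S.rel (r (wp m p + wp m q)) (r (wp m q)) :=
      S.star hrat hq2 hqm (by rw [h3]; exact Dvd.intro_left _ rfl)
    exact S.trans h1 (S.trans (S.symm h4) (S.trans h5 (S.symm h2)))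

section even

variable (h2m : 2 ∣ m)
include h2m

lemma rel_add_w {i : ZMod m} (hi : 2 • i ≠ 0) :
    have : Fact (Nat.Prime 2) := Nat.fact_prime_two
    S.rel (r i) (r (i + wp m 2)) := by
  have : Fact (Nat.Prime 2) := Nat.fact_prime_two
  have hw2 : 2 • wp m 2 = 0 := wp_nsmul h2m
  by_cases h4 : 4 ∣ addOrderOf i
  · apply hrat
    exact (addOrderOf_add_of_sq_dvd hw2 (by simpa using h4)).symm
  · have hn : addOrderOf i ≠ 0 := by
      intro h
      have h1 := ord_dvd i
      rw [h, zero_dvd_iff] at h1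
      exact NeZero.ne m h1
    have h2 : ¬ addOrderOf i ∣ 2 := by
      intro h
      exact hi (nsmul_of_dvd h (addOrderOf_nsmul_eq_zero i))
    obtain ⟨p, hp, hp2, hpi⟩ := exists_odd_prime_of_not hn h4 h2
    have h3 : addOrderOf i ∣ 2 * addOrderOf (i + wp m 2) := by
      apply addOrderOf_dvd_of_nsmul_eq_zero
      have h5 : 2 • i = 2 • (i + wp m 2) := by rw [nsmul_add, hw2, add_zero]
      rw [mul_nsmul, h5, smul_comm, addOrderOf_nsmul_eq_zero, nsmul_zero]
    have h5 : p ∣ 2 * addOrderOf (i + wp m 2) := hpi.trans h3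
    have h6 : p ∣ addOrderOf (i + wp m 2) := by
      rcases (hp.dvd_mul).1 h5 with h | h
      · exact absurd ((Nat.prime_dvd_prime_iff_eq hp Nat.prime_two).1 h) hp2
      · exact h
    exact S.rel_odd hrat hp hp hp2 hp2 hpi h6

lemma periodic_of_avoid {U : Set (DihedralGroup m)} (hU : Closed S.rel U)
    (h1 : (1 : DihedralGroup m) ∉ U)
    (hz : (r (wp m 2) : DihedralGroup m) ∉ U) :
    ∀ i, r (i + wp m 2) ∈ U ↔ r i ∈ U := by
  have : Fact (Nat.Prime 2) := Nat.fact_prime_two
  have hw2 : 2 • wp m 2 = 0 := wp_nsmul h2m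
  have hnot : ∀ x : ZMod m, 2 • x = 0 → (r x : DihedralGroup m) ∉ U := by
    intro x hx
    have h0 : x * ((2 : ℕ) : ZMod m) = 0 := by
      rw [mul_comm, ← nsmul_eq_mul]
      exact hx
    obtain ⟨l, hl, rfl⟩ := exists_of_mul_p h2m h0
    interval_cases l
    · rw [zero_nsmul, ← one_def]
      exact h1
    · rw [one_nsmul]
      exact hz
  intro i
  by_cases hi : 2 • i = 0
  · exact iff_of_false (hnot _ (by rw [nsmul_add, hi, hw2, add_zero])) (hnot _ hi)
  · exact (iff_of_rel S.symm hU (S.rel_add_w hrat h2m hi)).symm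

lemma two_classes {T T' : Set (DihedralGroup m)} (hT : Closed S.rel T) (hT' : Closed S.rel T')
    (h1 : (1 : DihedralGroup m) ∉ T) (h1' : (1 : DihedralGroup m) ∉ T')
    (hz : (r (wp m 2) : DihedralGroup m) ∉ T) (hz' : (r (wp m 2) : DihedralGroup m) ∉ T')
    (hd : ∀ g, g ∈ T → g ∉ T') {v v' : DihedralGroup m} (hv : v ∈ T) (hv' : v' ∈ T') : False := by
  classical
  have : Fact (Nat.Prime 2) := Nat.fact_prime_two
  have hTT' : Closed S.rel (T ∪ T') := S.closed_union hT hT'
  obtain ⟨lx, hlx⟩ := S.caseA hrat h2m hT (S.periodic_of_avoid hrat h2m hT h1 hz)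
  obtain ⟨ly, hly⟩ := S.caseA hrat h2m hT' (S.periodic_of_avoid hrat h2m hT' h1' hz')
  obtain ⟨lu, hlu⟩ := S.caseA hrat h2m hTT' (S.periodic_of_avoid hrat h2m hTT'
    (by rintro (h | h); exact h1 h; exact h1' h) (by rintro (h | h); exact hz h; exact hz' h))
  set x := ind T with hx
  set y := ind T' with hy
  have hxc : CF S.rel x := S.cf_ind hT
  have hyc : CF S.rel y := S.cf_ind hT'
  have hsum : ind (T ∪ T') = x + y := by
    apply ext_coeff
    intro g
    have hadd : (x + y).coeff g = x.coeff g + y.coeff g := by simp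
    rw [hadd]
    by_cases hg : g ∈ T
    · rw [coeff_ind_of_mem (Or.inl hg), hx, hy, coeff_ind_of_mem hg, coeff_ind_of_not_mem (hd g hg),
        add_zero]
    · by_cases hg' : g ∈ T'
      · rw [coeff_ind_of_mem (Or.inr hg'), hx, hy, coeff_ind_of_not_mem hg, coeff_ind_of_mem hg',
          zero_add]
      · rw [coeff_ind_of_not_mem (by rintro (h | h); exact hg h; exact hg' h), hx, hy,
          coeff_ind_of_not_mem hg, coeff_ind_of_not_mem hg', add_zero]
  have hexp : ∀ g, ((x + y) * (x + y)).coeff g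
      = (x * x).coeff g + 2 * (x * y).coeff g + (y * y).coeff g := by
    intro g
    have h3 : (x + y) * (x + y) = x * x + (x * y + x * y) + y * y := by
      rw [add_mul, mul_add, mul_add, S.comm hyc hxc]
      abel
    rw [h3]
    simp
    ring
  rw [hsum] at hlu
  have hc : ∀ g, g ≠ 1 → (x * y).coeff g = (x * y).coeff (sr 0) := by
    intro g hg
    have h3 := hexp g
    have h4 := hexp (sr 0)
    have hs : (sr 0 : DihedralGroup m) ≠ 1 := by rintro ⟨⟩
    rw [hlu g hg, hlx g hg, hly g hg] at h3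
    rw [hlu _ hs, hlx _ hs, hly _ hs] at h4
    linarith
  have hxy1 : (x * y).coeff 1 = 0 := by
    rw [coeff_mul_eq]
    apply Finset.sum_eq_zero
    intro u _
    rw [mul_one, S.coeff_inv_of_cf hyc]
    by_cases hu : u ∈ T
    · rw [hy, coeff_ind_of_not_mem (hd u hu), mul_zero]
    · rw [hx, coeff_ind_of_not_mem hu, zero_mul]
  have hassoc : ∀ g, (x * x * y).coeff g = (x * (x * y)).coeff g := by
    intro g
    rw [mul_assoc]
  have hL := fun g => coeff_mul_const_left (x * x) y hlx g
  have hR := fun g => coeff_mul_const_right x (x * y) hc g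
  have hg1 := hassoc 1
  have hgv := hassoc v'
  rw [hL, hR, hxy1] at hg1 hgv
  have hy1 : y.coeff 1 = 0 := coeff_ind_of_not_mem h1'
  have hx1 : x.coeff 1 = 0 := coeff_ind_of_not_mem h1
  have hyv : y.coeff v' = 1 := coeff_ind_of_mem hv'
  have hxv : x.coeff v' = 0 := coeff_ind_of_not_mem (fun h => hd v' h hv')
  rw [hy1, hx1] at hg1
  rw [hyv, hxv] at hgv
  have hxx1 : (x * x).coeff 1 = lx := by linarith
  -- `(x*x)(1)` is the size of `T`.
  have hsz : (x * x).coeff 1 = ∑ i, x.coeff (r i) + ∑ i, x.coeff (sr i) := by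
    rw [← sum_H, coeff_mul_eq]
    refine Finset.sum_congr rfl fun u _ => ?_
    rw [mul_one, S.coeff_inv_of_cf hxc]
    rcases coeff_ind_01 T u with h | h <;> simp [hx, h]
  have D := S.ds_of_ind hT hlx
  have ht : (∑ i, x.coeff (r i) - ∑ i, x.coeff (sr i)) ^ 2
      = ∑ i, x.coeff (r i) + ∑ i, x.coeff (sr i) - lx := D.t2
  rw [← hsz, hxx1, sub_self] at ht
  have h5 : ∑ i, x.coeff (r i) = ∑ i, x.coeff (sr i) := by
    have := pow_eq_zero_iff (two_ne_zero) |>.1 ht
    linarith
  exact S.alpha_ne_beta hT h1 hv hlx h5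

end even

/-- Every rational scheme is trivial. -/
theorem trivial_of_rational (hm : 2 ≤ m) :
    ∀ g h : DihedralGroup m, g ≠ 1 → h ≠ 1 → S.rel g h := by
  classical
  have hrne : ∀ {i : ZMod m}, (r i : DihedralGroup m) ≠ 1 → i ≠ 0 := by
    rintro i hi rfl
    exact hi rfl
  by_cases h2m : 2 ∣ m
  · -- even case
    have : Fact (Nat.Prime 2) := Nat.fact_prime_two
    set z : DihedralGroup m := r (wp m 2) with hz
    have hz1 : z ≠ 1 := by
      intro h
      rw [hz, one_def] at h
      exact wp_ne_zero h2m (r.inj h)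
    by_contra hcon
    push Not at hcon
    obtain ⟨g₁, h₁, hg₁, hh₁, hgh⟩ := hcon
    obtain ⟨g, hg, hgz⟩ : ∃ g : DihedralGroup m, g ≠ 1 ∧ ¬ S.rel g z := by
      by_cases h : S.rel g₁ z
      · refine ⟨h₁, hh₁, fun h' => hgh (S.trans h (S.symm h'))⟩
      · exact ⟨g₁, hg₁, h⟩
    set U : Set (DihedralGroup m) := {u | S.rel g u} with hU
    have hUc : Closed S.rel U := S.closed_class g
    have h1U : (1 : DihedralGroup m) ∉ U := fun h => hg (S.one h)
    have hzU : z ∉ U := hgz
    have hpart : ∀ h : DihedralGroup m, h ≠ 1 → ¬ S.rel h z → S.rel g h := by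
      intro h hh hhz
      by_contra hne
      refine S.two_classes hrat h2m hUc (S.closed_class h) h1U (fun hh' => hh (S.one hh')) hzU hhz
        (fun u hu hu' => hne (S.trans hu (S.symm hu'))) (v := g) (v' := h) (S.refl g) (S.refl h)
    have hper := S.periodic_of_avoid hrat h2m hUc h1U hzU
    obtain ⟨lam, hlam⟩ := S.caseA hrat h2m hUc hper
    have D := S.ds_of_ind hUc hlam
    set a : ZMod m → ℤ := fun i => (ind U).coeff (r i) with ha
    set b : ZMod m → ℤ := fun i => (ind U).coeff (sr i) with hb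
    have hα : ∑ i, a i ≠ 0 := by
      obtain ⟨i, hi⟩ := S.exists_rot hm hg
      exact sum_ne_zero_of_one (fun i => D.a_nonneg i) (i := i) (coeff_ind_of_mem hi)
    have hβ : ∑ i, b i ≠ 0 := by
      obtain ⟨i, hi⟩ := S.exists_refl hg
      exact sum_ne_zero_of_one (fun i => D.b_nonneg i) (i := i) (coeff_ind_of_mem hi)
    obtain ⟨k₀, hk₀⟩ := S.exists_refl hz1
    have hbk₀ : b k₀ = 0 := by
      apply coeff_ind_of_not_mem
      intro h
      exact hgz (S.trans h (S.symm hk₀))
    have hβ' : ∑ i, b i ≠ m := by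
      intro h
      have h1 : ∑ i, b i < ∑ _i : ZMod m, (1 : ℤ) := by
        apply Finset.sum_lt_sum (fun i _ => D.b_le i)
        exact ⟨k₀, Finset.mem_univ _, by rw [hbk₀]; norm_num⟩
      rw [DS.sum_card] at h1
      omega
    have hnot2 : ∀ i : ZMod m, 2 • i = 0 → a i = 0 := by
      intro i hi
      apply coeff_ind_of_not_mem
      have h0 : i * ((2 : ℕ) : ZMod m) = 0 := by
        rw [mul_comm, ← nsmul_eq_mul]
        exact hi
      obtain ⟨l, hl, rfl⟩ := exists_of_mul_p h2m h0
      interval_cases l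
      · rw [zero_nsmul, ← one_def]
        exact h1U
      · rw [one_nsmul]
        exact hzU
    have hrata : ∀ i j : ZMod m, addOrderOf i = addOrderOf j → a i = a j := by
      intro i j hij
      exact coeff_ind_congr (iff_of_rel S.symm hUc (hrat _ _ hij))
    obtain ⟨E, m', hodd, hmE⟩ := Nat.exists_eq_two_pow_mul_odd (NeZero.ne m)
    by_cases hm' : m' = 1
    · rw [hm', mul_one] at hmE
      exact D.two_power_contra hmE hrata hnot2 hα hβ hβ'
    · have hm'1 : 1 < m' := by
        have : m' ≠ 0 := by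
          rintro rfl
          exact absurd hodd (by decide)
        omega
      obtain ⟨p, hp, hpm'⟩ := Nat.exists_prime_and_dvd hm'
      have hp2 : p ≠ 2 := by
        rintro rfl
        exact (Nat.not_even_iff_odd.2 hodd) (even_iff_two_dvd.2 hpm')
      have hpm : p ∣ m := hpm'.trans ⟨2 ^ E, by rw [hmE]; ring⟩
      have : Fact p.Prime := ⟨hp⟩
      have hpw : p ∣ addOrderOf (wp m p) := by rw [addOrderOf_wp hpm]
      have htor : ∀ i : ZMod m, (∀ q : ℕ, q.Prime → q ≠ 2 → ¬ q ∣ addOrderOf i) → (2 ^ E) • i = 0 := by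
        intro i hi
        have h1 : Nat.Coprime (addOrderOf i) m' := by
          apply Nat.Coprime.symm
          apply Nat.coprime_of_dvd
          intro q hq hq1 hq2
          apply hi q hq _ hq2
          rintro rfl
          exact (Nat.not_even_iff_odd.2 hodd) (even_iff_two_dvd.2 hq1)
        have h2 : addOrderOf i ∣ 2 ^ E * m' := (ord_dvd i).trans (dvd_of_eq hmE)
        have h3 : addOrderOf i ∣ 2 ^ E := h1.dvd_of_dvd_mul_right h2
        exact nsmul_of_dvd h3 (addOrderOf_nsmul_eq_zero i)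
      have hbad : m = 2 ∨ m = 8 → False := by
        intro h
        have h1 : m' ∣ 8 := by
          rcases h with h | h
          · exact (Dvd.intro_left _ (hmE.symm.trans h)).trans (by norm_num)
          · exact (Dvd.intro_left _ (hmE.symm.trans h))
        have h2 : m' ≤ 8 := Nat.le_of_dvd (by norm_num) h1
        interval_cases m' <;> revert h1 hodd <;> decide
      by_cases hwz : S.rel (r (wp m p)) z
      · -- the class of `z` contains everything with an odd prime in its order
        apply hbad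
        refine D.support_lemma hmE hm'1 ?_ hα hβ
        intro i hi
        apply htor
        intro q hq hq2 hqi
        have h1 : r i ∈ U := by
          by_contra hne
          exact hi (coeff_ind_of_not_mem hne)
        exact hgz (S.trans h1 (S.trans (S.rel_odd hrat hq hp hq2 hp2 hqi hpw) hwz))
      · have hgw : S.rel g (r (wp m p)) := by
          apply hpart _ _ hwz
          intro h
          rw [one_def] at h
          exact wp_ne_zero hpm (r.inj h)
        apply hbad
        refine D.compl.support_lemma hmE hm'1 ?_ ?_ ?_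
        · intro i hi
          apply htor
          intro q hq hq2 hqi
          apply hi
          have h1 : r i ∈ U :=
            S.trans hgw (S.trans (S.rel_odd hrat hp hq hp2 hq2 hpw hqi) (S.refl _))
          have h2 : a i = 1 := coeff_ind_of_mem h1
          rw [h2, sub_self]
        · have h0 : a 0 = 0 := hnot2 0 (by simp)
          apply sum_ne_zero_of_one (fun i => by have := D.a_le i; linarith) (i := 0)
          rw [h0, sub_zero]
        · apply sum_ne_zero_of_one (fun i => by have := D.b_le i; linarith) (i := k₀)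
          rw [hbk₀, sub_zero]
  · -- odd case
    have hodd : ∀ {i : ZMod m}, i ≠ 0 → ∃ p, p.Prime ∧ p ≠ 2 ∧ p ∣ addOrderOf i := by
      intro i hi
      have h1 : addOrderOf i ≠ 1 := by
        intro h
        exact hi (AddMonoid.addOrderOf_eq_one_iff.1 h)
      obtain ⟨p, hp, hpi⟩ := Nat.exists_prime_and_dvd h1
      refine ⟨p, hp, ?_, hpi⟩
      rintro rfl
      exact h2m (hpi.trans (ord_dvd i))
    intro g h hg hh
    obtain ⟨i, hi⟩ := S.exists_rot hm hg
    obtain ⟨j, hj⟩ := S.exists_rot hm hh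
    have hi0 : i ≠ 0 := by
      rintro rfl
      exact hg (S.one hi)
    have hj0 : j ≠ 0 := by
      rintro rfl
      exact hh (S.one hj)
    obtain ⟨p, hp, hp2, hpi⟩ := hodd hi0
    obtain ⟨q, hq, hq2, hqj⟩ := hodd hj0
    exact S.trans hi (S.trans (S.rel_odd hrat hp hq hp2 hq2 hpi hqj) (S.symm hj))

end Scheme

/-- Every scheme is trivial. -/
theorem Scheme.trivial (S : Scheme m) (hm : 2 ≤ m) :
    ∀ g h : DihedralGroup m, g ≠ 1 → h ≠ 1 → S.rel g h := by
  apply S.trivial_of_fuse hm
  exact (S.fuse hm).trivial_of_rational (fun i j hij => S.fuse_rational hm hij) hm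

end

end Cfsg.Agent.Lib.DihS
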