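import Mathlib
import Cfsg.Agent.Lib.SpRoot

/-!
# Steinberg relations of `Sp_{2m}`: the basic identities
-/

set_option autoImplicit false

namespace Cfsg.Agent.Lib.SpN

open Cfsg.Agent.Lib.SpRoot (sg sg_swap sg_mul_self sg_ne_zero)

/-- The index set. -/
abbrev Ix (m : ℕ) := Fin m ⊕ Fin m

section Idx
variable {m : ℕ}

lemma sw_sw (a : Ix m) : a.swap.swap = a := Sum.swap_swap a
lemma sw_ne (a : Ix m) : a.swap ≠ a := by cases a <;> simp
lemma sw_inj {a b : Ix m} (h : a.swap = b.swap) : a = b := by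
  have := congrArg Sum.swap h
  simpa using this

lemma sw_ne_sw {a b : Ix m} (h : a ≠ b) : a.swap ≠ b.swap := fun e => h (sw_inj e)
lemma ne_sw_symm {a b : Ix m} (h : a ≠ b.swap) : b ≠ a.swap := by
  rintro rfl
  exact h (sw_sw a).symm

/-- Short root pairs. -/
def Sh (a b : Ix m) : Prop := a ≠ b ∧ b ≠ a.swap

lemma Sh.ne {a b : Ix m} (h : Sh a b) : a ≠ b := h.1
lemma Sh.ne' {a b : Ix m} (h : Sh a b) : b ≠ a.swap := h.2
lemma Sh.symm {a b : Ix m} (h : Sh a b) : Sh b a := ⟨h.1.symm, by obtain ⟨h1, h2⟩ := h; grind [sw_sw, sw_ne, sw_inj]⟩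
lemma Sh.ss {a b : Ix m} (h : Sh a b) : Sh a.swap b.swap := by
  obtain ⟨h1, h2⟩ := h
  constructor <;> grind [sw_sw, sw_ne, sw_inj]
lemma Sh.sr {a b : Ix m} (h : Sh a b) : Sh a b.swap := by
  obtain ⟨h1, h2⟩ := h
  constructor <;> grind [sw_sw, sw_ne, sw_inj]
lemma Sh.sl {a b : Ix m} (h : Sh a b) : Sh a.swap b := by
  obtain ⟨h1, h2⟩ := h
  constructor <;> grind [sw_sw, sw_ne, sw_inj]

end Idx

section Sg
variable {K : Type*} [Field K] {m : ℕ}

lemma sg_cases (a : Ix m) : (sg a : K) = 1 ∨ (sg a : K) = -1 := by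
  rcases a with a | a <;> simp [sg]

lemma sg_sw (a : Ix m) : (sg a.swap : K) = - sg a := sg_swap a

end Sg

/-- Elements of a group satisfying the Steinberg relations of `Sp_{2m}`. -/
structure Data (m : ℕ) (K Γ : Type*) [Field K] [Group Γ] where
  X : Ix m → Ix m → K → Γ
  L : Ix m → K → Γ
  Xsym : ∀ {a b}, Sh a b → ∀ t, X a b t = X b a t
  addX : ∀ {a b}, Sh a b → ∀ s t, X a b s * X a b t = X a b (s + t)
  addL : ∀ a s t, L a s * L a t = L a (s + t)
  commXX : ∀ {a b c d}, Sh a b → Sh c d → c ≠ a.swap → c ≠ b.swap → d ≠ a.swap → d ≠ b.swap →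
    ∀ t u, X a b t * X c d u = X c d u * X a b t
  commXL : ∀ {a b c}, Sh a b → c ≠ a.swap → c ≠ b.swap → ∀ t u, X a b t * L c u = L c u * X a b t
  commLL : ∀ {a c}, c ≠ a.swap → ∀ t u, L a t * L c u = L c u * L a t
  relC : ∀ {a b d}, Sh a b → d ≠ a → d ≠ a.swap → d ≠ b → d ≠ b.swap → ∀ t u,
    X a b t * X b.swap d u * (X a b t)⁻¹ = X b.swap d u * X a d (sg b * t * u)
  relC' : ∀ {a b}, Sh a b → ∀ t u,
    X a b t * X b.swap a u * (X a b t)⁻¹ = X b.swap a u * L a (2 * sg b * t * u)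
  relD : ∀ {a b}, Sh a b → ∀ t u,
    X a b t * L b.swap u * (X a b t)⁻¹ = L b.swap u * X b.swap a (sg b * t * u) * L a (t * t * u)

namespace Data

variable {m : ℕ} {K Γ : Type*} [Field K] [Group Γ] (D : Data m K Γ)

lemma X_zero {a b : Ix m} (h : Sh a b) : D.X a b 0 = 1 := by
  have := D.addX h 0 0
  rw [add_zero] at this
  exact mul_eq_left.1 this

lemma L_zero (a : Ix m) : D.L a 0 = 1 := by
  have := D.addL a 0 0
  rw [add_zero] at this
  exact mul_eq_left.1 this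

lemma X_inv {a b : Ix m} (h : Sh a b) (t : K) : (D.X a b t)⁻¹ = D.X a b (-t) := by
  rw [inv_eq_iff_mul_eq_one, D.addX h, add_neg_cancel, D.X_zero h]

lemma L_inv (a : Ix m) (t : K) : (D.L a t)⁻¹ = D.L a (-t) := by
  rw [inv_eq_iff_mul_eq_one, D.addL, add_neg_cancel, D.L_zero]

/-- Reverse form of `relD`. -/
lemma relD' {a b : Ix m} (h : Sh a b) (t v : K) :
    D.L b.swap v * D.X a b t * (D.L b.swap v)⁻¹ =
      D.X b.swap a (-sg b * t * v) * D.L a (-t * t * v) * D.X a b t := by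
  have h1 := D.relD h t (-v)
  rw [D.L_inv]
  have e1 : sg b * t * -v = -sg b * t * v := by ring
  have e2 : t * t * -v = -t * t * v := by ring
  rw [e1, e2] at h1
  have h2 : D.X a b t * D.L b.swap (-v) =
      D.L b.swap (-v) * D.X b.swap a (-sg b * t * v) * D.L a (-t * t * v) * D.X a b t := by
    rw [← h1]
    group
  have h3 : (D.L b.swap v)⁻¹ = D.L b.swap (-v) := D.L_inv _ _
  calc D.L b.swap v * D.X a b t * D.L b.swap (-v)
      = D.L b.swap v * (D.X a b t * D.L b.swap (-v)) := by group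
    _ = D.L b.swap v * (D.L b.swap (-v) * D.X b.swap a (-sg b * t * v) * D.L a (-t * t * v) * D.X a b t) := by rw [h2]
    _ = (D.L b.swap v * D.L b.swap (-v)) * D.X b.swap a (-sg b * t * v) * D.L a (-t * t * v) * D.X a b t := by group
    _ = _ := by rw [D.addL, add_neg_cancel, D.L_zero, one_mul]

/-- Weyl element of a short root. -/
def wS (a b : Ix m) (t : K) : Γ := D.X a b t * D.X a.swap b.swap (sg a * sg b * t⁻¹) * D.X a b t

/-- Weyl element of a long root. -/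
def wL (a : Ix m) (t : K) : Γ := D.L a t * D.L a.swap t⁻¹ * D.L a t

lemma wS_symm {a b : Ix m} (h : Sh a b) (t : K) : D.wS a b t = D.wS b a t := by
  rw [wS, wS, D.Xsym h, D.Xsym h.ss, mul_comm (sg a : K)]

lemma wS_inv {a b : Ix m} (h : Sh a b) (t : K) : (D.wS a b t)⁻¹ = D.wS a b (-t) := by
  simp only [wS, mul_inv_rev, D.X_inv h, D.X_inv h.ss, inv_neg, mul_neg, ← mul_assoc]

lemma wL_inv (a : Ix m) (t : K) : (D.wL a t)⁻¹ = D.wL a (-t) := by
  simp only [wL, mul_inv_rev, D.L_inv, inv_neg, ← mul_assoc]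

lemma conj_mul' (g x y : Γ) : g * (x * y) * g⁻¹ = (g * x * g⁻¹) * (g * y * g⁻¹) := by group

section WS
variable {a b : Ix m} (hab : Sh a b) {t : K} (ht : t ≠ 0)
include hab

lemma wS_unfold (x : Γ) : D.wS a b t * x * (D.wS a b t)⁻¹ =
    D.X a b t * (D.X a.swap b.swap (sg a * sg b * t⁻¹) *
      (D.X a b t * x * (D.X a b t)⁻¹) * (D.X a.swap b.swap (sg a * sg b * t⁻¹))⁻¹) * (D.X a b t)⁻¹ := by
  simp only [wS]
  group

include ht

/-- Two basic conjugations by the negative root. -/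
lemma opp_Xa {d : Ix m} (h1 : d ≠ a) (h2 : d ≠ a.swap) (h3 : d ≠ b) (h4 : d ≠ b.swap) (s u : K) :
    D.X a.swap b.swap s * D.X a d u * (D.X a.swap b.swap s)⁻¹ =
      D.X a d u * D.X b.swap d (-sg a * s * u) := by
  have hs : Sh b.swap a.swap := hab.ss.symm
  have := D.relC hs (d := d) h4 (by simpa [sw_sw] using h3) h2 (by simpa [sw_sw] using h1) s u
  simp only [sw_sw, sg_sw] at this
  rw [D.Xsym hab.ss]
  exact this

/-- `w` on `x_{a d}`. -/
lemma T1 {d : Ix m} (h1 : d ≠ a) (h2 : d ≠ a.swap) (h3 : d ≠ b) (h4 : d ≠ b.swap) (u : K) :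
    D.wS a b t * D.X a d u * (D.wS a b t)⁻¹ = D.X b.swap d (-sg b * t⁻¹ * u) := by
  have sad : Sh a d := ⟨h1.symm, h2⟩
  have sbd : Sh b.swap d := ⟨h4.symm, by simpa [sw_sw] using h3⟩
  have hne := hab.1
  have hne' := hab.2
  rw [D.wS_unfold hab]
  have e1 : D.X a b t * D.X a d u * (D.X a b t)⁻¹ = D.X a d u := by
    rw [D.commXX hab sad (sw_ne a).symm hab.symm.ne' h2 h4]
    group
  rw [e1, D.opp_Xa hab ht h1 h2 h3 h4, conj_mul', e1]
  have e2 := D.relC hab h1 h2 h3 h4 t (-sg a * (sg a * sg b * t⁻¹) * u)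
  rw [e2]
  have e3 : sg b * t * (-sg a * (sg a * sg b * t⁻¹) * u) = -u := by
    have h5 := sg_mul_self (K := K) a
    have h6 := sg_mul_self (K := K) b
    have h7 : t * t⁻¹ = 1 := mul_inv_cancel₀ ht
    linear_combination (-(sg b * sg b * (t * t⁻¹) * u)) * h5 + (-(t * t⁻¹ * u)) * h6 + (-u) * h7
  rw [e3]
  have e4 : -sg a * (sg a * sg b * t⁻¹) * u = -sg b * t⁻¹ * u := by
    have h5 := sg_mul_self (K := K) a
    linear_combination (-(sg b * t⁻¹ * u)) * h5
  have c5 : D.X b.swap d (-sg b * t⁻¹ * u) * D.X a d (-u) = D.X a d (-u) * D.X b.swap d (-sg b * t⁻¹ * u) :=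
    D.commXX sbd sad (by grind [sw_sw, sw_ne, sw_inj]) (by grind [sw_sw, sw_ne, sw_inj]) (by grind [sw_sw, sw_ne, sw_inj]) (by grind [sw_sw, sw_ne, sw_inj]) _ _
  rw [e4, ← mul_assoc, mul_assoc (D.X a d u), c5, ← mul_assoc, D.addX sad, add_neg_cancel, D.X_zero sad, one_mul]

lemma T2 {d : Ix m} (h1 : d ≠ a) (h2 : d ≠ a.swap) (h3 : d ≠ b) (h4 : d ≠ b.swap) (u : K) :
    D.wS a b t * D.X b.swap d u * (D.wS a b t)⁻¹ = D.X a d (sg b * t * u) := by
  have sad : Sh a d := ⟨h1.symm, h2⟩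
  have sbd : Sh b.swap d := ⟨h4.symm, by simpa [sw_sw] using h3⟩
  have hne := hab.1
  have hne' := hab.2
  rw [D.wS_unfold hab, D.relC hab h1 h2 h3 h4 t u]
  have e1 : D.X a.swap b.swap (sg a * sg b * t⁻¹) * D.X b.swap d u *
      (D.X a.swap b.swap (sg a * sg b * t⁻¹))⁻¹ = D.X b.swap d u := by
    rw [D.commXX hab.ss sbd (by grind [sw_sw, sw_ne, sw_inj]) (by grind [sw_sw, sw_ne, sw_inj])
      (by grind [sw_sw, sw_ne, sw_inj]) (by grind [sw_sw, sw_ne, sw_inj])]
    group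
  have e2 : D.X a.swap b.swap (sg a * sg b * t⁻¹) * (D.X b.swap d u * D.X a d (sg b * t * u)) *
      (D.X a.swap b.swap (sg a * sg b * t⁻¹))⁻¹ = D.X a d (sg b * t * u) := by
    rw [conj_mul', e1, D.opp_Xa hab ht h1 h2 h3 h4]
    have e3 : -sg a * (sg a * sg b * t⁻¹) * (sg b * t * u) = -u := by
      have h5 := sg_mul_self (K := K) a
      have h6 := sg_mul_self (K := K) b
      have h7 : t * t⁻¹ = 1 := mul_inv_cancel₀ ht
      linear_combination (-(sg b * sg b * (t * t⁻¹) * u)) * h5 + (-(t * t⁻¹ * u)) * h6 + (-u) * h7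
    rw [e3]
    have c5 : D.X b.swap d u * D.X a d (sg b * t * u) = D.X a d (sg b * t * u) * D.X b.swap d u :=
      D.commXX sbd sad (by grind [sw_sw, sw_ne, sw_inj]) (by grind [sw_sw, sw_ne, sw_inj])
        (by grind [sw_sw, sw_ne, sw_inj]) (by grind [sw_sw, sw_ne, sw_inj]) _ _
    rw [← mul_assoc, c5, mul_assoc, D.addX sbd, add_neg_cancel, D.X_zero sbd, mul_one]
  rw [e2, D.commXX hab sad (sw_ne a).symm hab.symm.ne' h2 h4]
  group

lemma T3 {d : Ix m} (h1 : d ≠ a) (h2 : d ≠ a.swap) (h3 : d ≠ b) (h4 : d ≠ b.swap) (u : K) :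
    D.wS a b t * D.X b d u * (D.wS a b t)⁻¹ = D.X a.swap d (-sg a * t⁻¹ * u) := by
  rw [D.wS_symm hab]
  exact D.T1 hab.symm ht h3 h4 h1 h2 u

lemma T4 {d : Ix m} (h1 : d ≠ a) (h2 : d ≠ a.swap) (h3 : d ≠ b) (h4 : d ≠ b.swap) (u : K) :
    D.wS a b t * D.X a.swap d u * (D.wS a b t)⁻¹ = D.X b d (sg a * t * u) := by
  rw [D.wS_symm hab]
  exact D.T2 hab.symm ht h3 h4 h1 h2 u

/-- `w` on `L a`. -/
lemma T6 (u : K) : D.wS a b t * D.L a u * (D.wS a b t)⁻¹ = D.L b.swap (t⁻¹ * t⁻¹ * u) := by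
  rw [D.wS_unfold hab]
  have hs := hab.sr
  have hne := hab.1
  have hne' := hab.2
  have e0 : ∀ v, D.X a b t * D.L a v * (D.X a b t)⁻¹ = D.L a v := by
    intro v
    rw [D.commXL hab (sw_ne a).symm hab.symm.ne']
    group
  rw [e0]
  set s : K := sg a * sg b * t⁻¹ with hs'
  have e1 : D.X a.swap b.swap s * D.L a u * (D.X a.swap b.swap s)⁻¹ =
      D.L a u * D.X a b.swap (-sg a * s * u) * D.L b.swap (s * s * u) := by
    have := D.relD hab.ss.symm s u
    simp only [sw_sw, sg_sw] at this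
    rw [D.Xsym hab.ss, this, D.Xsym hab.sr]
  rw [e1, conj_mul', conj_mul', e0]
  have e2 : ∀ v, D.X a b t * D.X a b.swap v * (D.X a b t)⁻¹ = D.X a b.swap v * D.L a (2 * sg b * t * v) := by
    intro v
    rw [D.Xsym hab.sr, D.relC' hab]
  have e3 := D.relD hab t (s * s * u)
  rw [e2, e3]
  have e4 : s * s * u = t⁻¹ * t⁻¹ * u := by
    have h5 := sg_mul_self (K := K) a
    have h6 := sg_mul_self (K := K) b
    rw [hs']
    linear_combination (sg b * sg b * t⁻¹ * t⁻¹ * u) * h5 + (t⁻¹ * t⁻¹ * u) * h6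
  have e5 : sg b * t * (s * s * u) = sg b * t⁻¹ * u := by
    rw [e4]
    have h7 : t * t⁻¹ = 1 := mul_inv_cancel₀ ht
    linear_combination (sg b * t⁻¹ * u) * h7
  have e6 : t * t * (s * s * u) = u := by
    rw [e4]
    have h7 : t * t⁻¹ = 1 := mul_inv_cancel₀ ht
    linear_combination (t * t⁻¹ * u + u) * h7
  have e7 : -sg a * s * u = -sg b * t⁻¹ * u := by
    have h5 := sg_mul_self (K := K) a
    rw [hs']
    linear_combination (-(sg b * t⁻¹ * u)) * h5
  have e8 : 2 * sg b * t * (-sg b * t⁻¹ * u) = -2 * u := by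
    have h6 := sg_mul_self (K := K) b
    have h7 : t * t⁻¹ = 1 := mul_inv_cancel₀ ht
    linear_combination (-(2 * (t * t⁻¹) * u)) * h6 + (-2 * u) * h7
  rw [e5, e6, e7, e8, e4]
  -- now everything commutes
  have sa : Sh a b.swap := hab.sr
  have c1 : ∀ v w, D.X a b.swap v * D.L a w = D.L a w * D.X a b.swap v := fun v w =>
    D.commXL sa (sw_ne a).symm (by simpa [sw_sw] using hab.ne)  v w
  have c2 : ∀ v w, D.X a b.swap v * D.L b.swap w = D.L b.swap w * D.X a b.swap v := fun v w =>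
    D.commXL sa (by grind [sw_sw, sw_ne, sw_inj]) (sw_ne _).symm v w
  have c3 : ∀ v w, D.L a v * D.L b.swap w = D.L b.swap w * D.L a v := fun v w =>
    D.commLL (by grind [sw_sw, sw_ne, sw_inj]) v w
  rw [D.Xsym sa.symm (sg b * t⁻¹ * u)]
  have e9 : D.L a u * (D.X a b.swap (-sg b * t⁻¹ * u) * D.L a (-2 * u)) *
      (D.L b.swap (t⁻¹ * t⁻¹ * u) * D.X a b.swap (sg b * t⁻¹ * u) * D.L a u) =
      D.L b.swap (t⁻¹ * t⁻¹ * u) := by
    calc _ = D.L a u * (D.L a (-2 * u) * D.X a b.swap (-sg b * t⁻¹ * u)) *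
        (D.L b.swap (t⁻¹ * t⁻¹ * u) * D.X a b.swap (sg b * t⁻¹ * u) * D.L a u) := by rw [c1]
      _ = D.L a u * D.L a (-2 * u) * (D.X a b.swap (-sg b * t⁻¹ * u) * D.L b.swap (t⁻¹ * t⁻¹ * u)) *
        D.X a b.swap (sg b * t⁻¹ * u) * D.L a u := by group
      _ = D.L a u * D.L a (-2 * u) * (D.L b.swap (t⁻¹ * t⁻¹ * u) * D.X a b.swap (-sg b * t⁻¹ * u)) *
        D.X a b.swap (sg b * t⁻¹ * u) * D.L a u := by rw [c2]
      _ = D.L a u * D.L a (-2 * u) * D.L b.swap (t⁻¹ * t⁻¹ * u) *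
        (D.X a b.swap (-sg b * t⁻¹ * u) * D.X a b.swap (sg b * t⁻¹ * u)) * D.L a u := by group
      _ = D.L a u * D.L a (-2 * u) * D.L b.swap (t⁻¹ * t⁻¹ * u) * D.L a u := by
        rw [D.addX sa]
        have : -sg b * t⁻¹ * u + sg b * t⁻¹ * u = 0 := by ring
        rw [this, D.X_zero sa, mul_one]
      _ = D.L a u * D.L a (-2 * u) * (D.L b.swap (t⁻¹ * t⁻¹ * u) * D.L a u) := by group
      _ = D.L a u * D.L a (-2 * u) * (D.L a u * D.L b.swap (t⁻¹ * t⁻¹ * u)) := by rw [c3]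
      _ = (D.L a u * D.L a (-2 * u) * D.L a u) * D.L b.swap (t⁻¹ * t⁻¹ * u) := by group
      _ = _ := by
        rw [D.addL, D.addL]
        have : u + -2 * u + u = 0 := by ring
        rw [this, D.L_zero, one_mul]
  exact e9

lemma T7 (u : K) : D.wS a b t * D.L b.swap u * (D.wS a b t)⁻¹ = D.L a (t * t * u) := by
  rw [D.wS_unfold hab]
  set s : K := sg a * sg b * t⁻¹ with hs'
  have sa : Sh a b.swap := hab.sr
  have hne := hab.1
  have hne' := hab.2
  have a1 : D.X a b t * D.L b.swap u * (D.X a b t)⁻¹ =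
      D.L b.swap u * D.X a b.swap (sg b * t * u) * D.L a (t * t * u) := by
    rw [D.relD hab, D.Xsym sa.symm]
  rw [a1]
  have e0 : D.X a.swap b.swap s * D.L b.swap u * (D.X a.swap b.swap s)⁻¹ = D.L b.swap u := by
    rw [D.commXL hab.ss (by grind [sw_sw, sw_ne, sw_inj]) (by grind [sw_sw, sw_ne, sw_inj])]
    group
  have e1 : ∀ v, D.X a.swap b.swap s * D.L a v * (D.X a.swap b.swap s)⁻¹ =
      D.L a v * D.X a b.swap (-sg a * s * v) * D.L b.swap (s * s * v) := by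
    intro v
    have := D.relD hab.ss.symm s v
    simp only [sw_sw, sg_sw] at this
    rw [D.Xsym hab.ss, this, D.Xsym hab.sr]
  have e2 : ∀ v, D.X a.swap b.swap s * D.X a b.swap v * (D.X a.swap b.swap s)⁻¹ =
      D.X a b.swap v * D.L b.swap (-2 * sg a * s * v) := by
    intro v
    have := D.relC' hab.ss.symm s v
    simp only [sw_sw, sg_sw] at this
    rw [D.Xsym hab.ss, this]
    have e : 2 * -sg a * s * v = -2 * sg a * s * v := by ring
    rw [e]
  have b1 : D.X a.swap b.swap s * (D.L b.swap u * D.X a b.swap (sg b * t * u) * D.L a (t * t * u)) *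
      (D.X a.swap b.swap s)⁻¹ = D.L b.swap u * (D.X a b.swap (sg b * t * u) * D.L b.swap (-2 * sg a * s * (sg b * t * u))) *
        (D.L a (t * t * u) * D.X a b.swap (-sg a * s * (t * t * u)) * D.L b.swap (s * s * (t * t * u))) := by
    rw [conj_mul', conj_mul', e0, e1, e2]
  rw [b1]
  have e3 : -2 * sg a * s * (sg b * t * u) = -2 * u := by
    have h5 := sg_mul_self (K := K) a
    have h6 := sg_mul_self (K := K) b
    have h7 : t * t⁻¹ = 1 := mul_inv_cancel₀ ht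
    rw [hs']
    linear_combination (-(2 * sg b * sg b * (t * t⁻¹) * u)) * h5 + (-(2 * (t * t⁻¹) * u)) * h6 + (-2 * u) * h7
  have e4 : -sg a * s * (t * t * u) = -(sg b * t * u) := by
    have h5 := sg_mul_self (K := K) a
    have h7 : t * t⁻¹ = 1 := mul_inv_cancel₀ ht
    rw [hs']
    linear_combination (-(sg b * t * (t * t⁻¹) * u)) * h5 + (-(sg b * t * u)) * h7
  have e5 : s * s * (t * t * u) = u := by
    have h5 := sg_mul_self (K := K) a
    have h6 := sg_mul_self (K := K) b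
    have h7 : t * t⁻¹ = 1 := mul_inv_cancel₀ ht
    rw [hs']
    linear_combination (sg b * sg b * (t * t⁻¹) * (t * t⁻¹) * u) * h5 + ((t * t⁻¹) * (t * t⁻¹) * u) * h6 +
      (t * t⁻¹ * u + u) * h7
  rw [e3, e4, e5]
  have c1 : ∀ v w, D.X a b.swap v * D.L a w = D.L a w * D.X a b.swap v := fun v w =>
    D.commXL sa (sw_ne a).symm (by simpa [sw_sw] using hab.ne)  v w
  have c2 : ∀ v w, D.X a b.swap v * D.L b.swap w = D.L b.swap w * D.X a b.swap v := fun v w =>
    D.commXL sa (by grind [sw_sw, sw_ne, sw_inj]) (sw_ne _).symm v w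
  have c3 : ∀ v w, D.L a v * D.L b.swap w = D.L b.swap w * D.L a v := fun v w =>
    D.commLL (by grind [sw_sw, sw_ne, sw_inj]) v w
  have e9 : D.L b.swap u * (D.X a b.swap (sg b * t * u) * D.L b.swap (-2 * u)) *
      (D.L a (t * t * u) * D.X a b.swap (-(sg b * t * u)) * D.L b.swap u) = D.L a (t * t * u) := by
    calc _ = D.L b.swap u * (D.L b.swap (-2 * u) * D.X a b.swap (sg b * t * u)) *
        (D.L a (t * t * u) * D.X a b.swap (-(sg b * t * u)) * D.L b.swap u) := by rw [c2]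
      _ = D.L b.swap u * D.L b.swap (-2 * u) * (D.X a b.swap (sg b * t * u) * D.L a (t * t * u)) *
        D.X a b.swap (-(sg b * t * u)) * D.L b.swap u := by group
      _ = D.L b.swap u * D.L b.swap (-2 * u) * (D.L a (t * t * u) * D.X a b.swap (sg b * t * u)) *
        D.X a b.swap (-(sg b * t * u)) * D.L b.swap u := by rw [c1]
      _ = D.L b.swap u * D.L b.swap (-2 * u) * D.L a (t * t * u) *
        (D.X a b.swap (sg b * t * u) * D.X a b.swap (-(sg b * t * u))) * D.L b.swap u := by group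
      _ = D.L b.swap u * D.L b.swap (-2 * u) * D.L a (t * t * u) * D.L b.swap u := by
        rw [D.addX sa, add_neg_cancel, D.X_zero sa, mul_one]
      _ = D.L b.swap u * D.L b.swap (-2 * u) * (D.L a (t * t * u) * D.L b.swap u) := by group
      _ = D.L b.swap u * D.L b.swap (-2 * u) * (D.L b.swap u * D.L a (t * t * u)) := by rw [c3]
      _ = (D.L b.swap u * D.L b.swap (-2 * u) * D.L b.swap u) * D.L a (t * t * u) := by group
      _ = _ := by
        rw [D.addL, D.addL]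
        have : u + -2 * u + u = 0 := by ring
        rw [this, D.L_zero, one_mul]
  rw [e9, D.commXL hab (sw_ne a).symm hab.symm.ne']
  group

lemma T8 (u : K) : D.wS a b t * D.L b u * (D.wS a b t)⁻¹ = D.L a.swap (t⁻¹ * t⁻¹ * u) := by
  rw [D.wS_symm hab]
  exact D.T6 hab.symm ht u

lemma T9 (u : K) : D.wS a b t * D.L a.swap u * (D.wS a b t)⁻¹ = D.L b (t * t * u) := by
  rw [D.wS_symm hab]
  exact D.T7 hab.symm ht u

/-- `w` on the orthogonal short root. -/
lemma T5 (u : K) : D.wS a b t * D.X a b.swap u * (D.wS a b t)⁻¹ = D.X a b.swap (-u) := by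
  rw [D.wS_unfold hab]
  set s : K := sg a * sg b * t⁻¹ with hs'
  have sa : Sh a b.swap := hab.sr
  have hne := hab.1
  have hne' := hab.2
  have e1 : ∀ v, D.X a b t * D.X a b.swap v * (D.X a b t)⁻¹ = D.X a b.swap v * D.L a (2 * sg b * t * v) := by
    intro v
    rw [D.Xsym hab.sr, D.relC' hab]
  have e0 : ∀ v, D.X a b t * D.L a v * (D.X a b t)⁻¹ = D.L a v := by
    intro v
    rw [D.commXL hab (sw_ne a).symm hab.symm.ne']
    group
  have e2 : ∀ v, D.X a.swap b.swap s * D.X a b.swap v * (D.X a.swap b.swap s)⁻¹ =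
      D.X a b.swap v * D.L b.swap (-2 * sg a * s * v) := by
    intro v
    have := D.relC' hab.ss.symm s v
    simp only [sw_sw, sg_sw] at this
    rw [D.Xsym hab.ss, this]
    have e : 2 * -sg a * s * v = -2 * sg a * s * v := by ring
    rw [e]
  have e3 : ∀ v, D.X a.swap b.swap s * D.L a v * (D.X a.swap b.swap s)⁻¹ =
      D.L a v * D.X a b.swap (-sg a * s * v) * D.L b.swap (s * s * v) := by
    intro v
    have := D.relD hab.ss.symm s v
    simp only [sw_sw, sg_sw] at this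
    rw [D.Xsym hab.ss, this, D.Xsym hab.sr]
  have b1 : D.X a.swap b.swap s * (D.X a b.swap u * D.L a (2 * sg b * t * u)) * (D.X a.swap b.swap s)⁻¹ =
      (D.X a b.swap u * D.L b.swap (-2 * sg a * s * u)) *
        (D.L a (2 * sg b * t * u) * D.X a b.swap (-sg a * s * (2 * sg b * t * u)) *
          D.L b.swap (s * s * (2 * sg b * t * u))) := by
    rw [conj_mul', e2, e3]
  rw [e1, b1]
  have e4 : -2 * sg a * s * u = -2 * sg b * t⁻¹ * u := by
    have h5 := sg_mul_self (K := K) a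
    rw [hs']
    linear_combination (-(2 * sg b * t⁻¹ * u)) * h5
  have e5 : -sg a * s * (2 * sg b * t * u) = -2 * u := by
    have h5 := sg_mul_self (K := K) a
    have h6 := sg_mul_self (K := K) b
    have h7 : t * t⁻¹ = 1 := mul_inv_cancel₀ ht
    rw [hs']
    linear_combination (-(2 * sg b * sg b * (t * t⁻¹) * u)) * h5 + (-(2 * (t * t⁻¹) * u)) * h6 + (-2 * u) * h7
  have e6 : s * s * (2 * sg b * t * u) = 2 * sg b * t⁻¹ * u := by
    have h5 := sg_mul_self (K := K) a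
    have h6 := sg_mul_self (K := K) b
    have h7 : t * t⁻¹ = 1 := mul_inv_cancel₀ ht
    rw [hs']
    linear_combination (sg b * sg b * t⁻¹ * t⁻¹ * (2 * sg b * t * u)) * h5 + (t⁻¹ * t⁻¹ * (2 * sg b * t * u)) * h6 +
      (2 * sg b * t⁻¹ * u) * h7
  rw [e4, e5, e6]
  have c1 : ∀ v w, D.X a b.swap v * D.L a w = D.L a w * D.X a b.swap v := fun v w =>
    D.commXL sa (sw_ne a).symm (by simpa [sw_sw] using hab.ne)  v w
  have c2 : ∀ v w, D.X a b.swap v * D.L b.swap w = D.L b.swap w * D.X a b.swap v := fun v w =>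
    D.commXL sa (by grind [sw_sw, sw_ne, sw_inj]) (sw_ne _).symm v w
  have c3 : ∀ v w, D.L a v * D.L b.swap w = D.L b.swap w * D.L a v := fun v w =>
    D.commLL (by grind [sw_sw, sw_ne, sw_inj]) v w
  set y := 2 * sg b * t * u with hy
  have e9 : D.X a b.swap u * D.L b.swap (-2 * sg b * t⁻¹ * u) *
      (D.L a y * D.X a b.swap (-2 * u) * D.L b.swap (2 * sg b * t⁻¹ * u)) = D.X a b.swap (-u) * D.L a y := by
    calc _ = D.X a b.swap u * (D.L b.swap (-2 * sg b * t⁻¹ * u) * D.L a y) *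
        D.X a b.swap (-2 * u) * D.L b.swap (2 * sg b * t⁻¹ * u) := by group
      _ = D.X a b.swap u * (D.L a y * D.L b.swap (-2 * sg b * t⁻¹ * u)) *
        D.X a b.swap (-2 * u) * D.L b.swap (2 * sg b * t⁻¹ * u) := by rw [c3]
      _ = D.X a b.swap u * D.L a y * (D.L b.swap (-2 * sg b * t⁻¹ * u) * D.X a b.swap (-2 * u)) *
        D.L b.swap (2 * sg b * t⁻¹ * u) := by group
      _ = D.X a b.swap u * D.L a y * (D.X a b.swap (-2 * u) * D.L b.swap (-2 * sg b * t⁻¹ * u)) *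
        D.L b.swap (2 * sg b * t⁻¹ * u) := by rw [c2]
      _ = D.X a b.swap u * D.L a y * D.X a b.swap (-2 * u) *
        (D.L b.swap (-2 * sg b * t⁻¹ * u) * D.L b.swap (2 * sg b * t⁻¹ * u)) := by group
      _ = D.X a b.swap u * D.L a y * D.X a b.swap (-2 * u) := by
        rw [D.addL]
        have : -2 * sg b * t⁻¹ * u + 2 * sg b * t⁻¹ * u = 0 := by ring
        rw [this, D.L_zero, mul_one]
      _ = D.X a b.swap u * (D.L a y * D.X a b.swap (-2 * u)) := by group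
      _ = D.X a b.swap u * (D.X a b.swap (-2 * u) * D.L a y) := by rw [c1]
      _ = (D.X a b.swap u * D.X a b.swap (-2 * u)) * D.L a y := by group
      _ = _ := by
        rw [D.addX sa]
        have : u + -2 * u = -u := by ring
        rw [this]
  rw [e9, conj_mul', e1, e0]
  have e10 : 2 * sg b * t * -u = -y := by rw [hy]; ring
  rw [e10, mul_assoc, D.addL, neg_add_cancel, D.L_zero, mul_one]

/-- `x_{ab}(v)` as a word in elements on which `w` acts simply. -/
lemma X_word (v : K) : D.X a b v = D.L b (sg b * v) * D.X a b.swap 1 * D.L b (-(sg b * v)) * D.X a b.swap (-1) *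
    D.L a (sg b * v) := by
  have sa : Sh a b.swap := hab.sr
  have h := D.relD sa 1 (-(sg b * v))
  simp only [sw_sw, sg_sw] at h
  have e1 : -sg b * 1 * -(sg b * v) = v := by
    have h6 := sg_mul_self (K := K) b
    linear_combination (v) * h6
  have e2 : (1 : K) * 1 * -(sg b * v) = -(sg b * v) := by ring
  rw [e1, e2, D.X_inv sa] at h
  have e3 : D.L b (sg b * v) * D.X a b.swap 1 * D.L b (-(sg b * v)) * D.X a b.swap (-1) * D.L a (sg b * v) =
      D.L b (sg b * v) * (D.X a b.swap 1 * D.L b (-(sg b * v)) * D.X a b.swap (-1)) * D.L a (sg b * v) := by group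
  rw [e3, h, D.Xsym hab]
  have e4 : D.L b (sg b * v) * (D.L b (-(sg b * v)) * D.X b a v * D.L a (-(sg b * v))) * D.L a (sg b * v) =
      (D.L b (sg b * v) * D.L b (-(sg b * v))) * D.X b a v * (D.L a (-(sg b * v)) * D.L a (sg b * v)) := by group
  rw [e4, D.addL, D.addL, add_neg_cancel, neg_add_cancel, D.L_zero, D.L_zero, one_mul, mul_one]

/-- `w` on `x_ab`. -/
lemma T10 (u : K) : D.wS a b t * D.X a b u * (D.wS a b t)⁻¹ = D.X a.swap b.swap (sg a * sg b * (t⁻¹ * t⁻¹) * u) := by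
  have sa : Sh a b.swap := hab.sr
  have conj5 : ∀ (g x1 x2 x3 x4 x5 : Γ), g * (x1 * x2 * x3 * x4 * x5) * g⁻¹ =
      (g * x1 * g⁻¹) * (g * x2 * g⁻¹) * (g * x3 * g⁻¹) * (g * x4 * g⁻¹) * (g * x5 * g⁻¹) := by
    intros; group
  rw [D.X_word hab ht, conj5, D.T8 hab ht, D.T8 hab ht, D.T5 hab ht, D.T5 hab ht, D.T6 hab ht]
  set w : K := t⁻¹ * t⁻¹ * (sg b * u) with hw
  have e1 : t⁻¹ * t⁻¹ * -(sg b * u) = -w := by rw [hw]; ring
  rw [e1, neg_neg]
  have h := D.relD sa.symm (-1) (-w)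
  rw [D.Xsym sa.symm, D.X_inv sa, neg_neg] at h
  have e3 : sg a * -1 * -w = sg a * w := by ring
  have e4 : (-1 : K) * -1 * -w = -w := by ring
  rw [e3, e4] at h
  have e5 : D.X a b.swap (-1) * D.L a.swap (-w) * D.X a b.swap 1 =
      D.L a.swap (-w) * D.X a.swap b.swap (sg a * w) * D.L b.swap (-w) := h
  have e6 : D.L a.swap w * D.X a b.swap (-1) * D.L a.swap (-w) * D.X a b.swap 1 * D.L b.swap w =
      D.L a.swap w * (D.X a b.swap (-1) * D.L a.swap (-w) * D.X a b.swap 1) * D.L b.swap w := by group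
  have e7 : sg a * sg b * (t⁻¹ * t⁻¹) * u = sg a * w := by rw [hw]; ring
  rw [e6, e5, e7]
  have e8 : D.L a.swap w * (D.L a.swap (-w) * D.X a.swap b.swap (sg a * w) * D.L b.swap (-w)) * D.L b.swap w =
      (D.L a.swap w * D.L a.swap (-w)) * D.X a.swap b.swap (sg a * w) * (D.L b.swap (-w) * D.L b.swap w) := by group
  rw [e8, D.addL, D.addL, add_neg_cancel, neg_add_cancel, D.L_zero, D.L_zero, one_mul, mul_one]

/-- `w` on `x_{āb̄}`. -/
lemma T11 (u : K) : D.wS a b t * D.X a.swap b.swap u * (D.wS a b t)⁻¹ = D.X a b (sg a * sg b * (t * t) * u) := by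
  have h := D.T10 hab (neg_ne_zero.2 ht) (sg a * sg b * (t * t) * u)
  rw [← D.wS_inv hab, inv_inv] at h
  have e : sg a * sg b * ((-t)⁻¹ * (-t)⁻¹) * (sg a * sg b * (t * t) * u) = u := by
    have h5 := sg_mul_self (K := K) a
    have h6 := sg_mul_self (K := K) b
    have h7 : t * t⁻¹ = 1 := mul_inv_cancel₀ ht
    rw [inv_neg]
    linear_combination (sg b * sg b * (t * t⁻¹) * (t * t⁻¹) * u) * h5 + ((t * t⁻¹) * (t * t⁻¹) * u) * h6 +
      (t * t⁻¹ * u + u) * h7
  rw [e] at h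
  rw [← h]
  group

/-- `w` acts trivially off its roots. -/
lemma T12 {c d : Ix m} (hcd : Sh c d) (h1 : c ≠ a) (h2 : c ≠ a.swap) (h3 : c ≠ b) (h4 : c ≠ b.swap)
    (h5 : d ≠ a) (h6 : d ≠ a.swap) (h7 : d ≠ b) (h8 : d ≠ b.swap) (u : K) :
    D.wS a b t * D.X c d u * (D.wS a b t)⁻¹ = D.X c d u := by
  have e1 : ∀ v, D.X a b v * D.X c d u = D.X c d u * D.X a b v := fun v => D.commXX hab hcd h2 h4 h6 h8 v u
  have e2 : ∀ v, D.X a.swap b.swap v * D.X c d u = D.X c d u * D.X a.swap b.swap v := fun v =>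
    D.commXX hab.ss hcd (by rwa [sw_sw]) (by rwa [sw_sw]) (by rwa [sw_sw]) (by rwa [sw_sw]) v u
  rw [mul_inv_eq_iff_eq_mul, wS, mul_assoc, e1, ← mul_assoc, mul_assoc (D.X a b t), e2, ← mul_assoc, e1]
  group

lemma T13 {c : Ix m} (h1 : c ≠ a) (h2 : c ≠ a.swap) (h3 : c ≠ b) (h4 : c ≠ b.swap) (u : K) :
    D.wS a b t * D.L c u * (D.wS a b t)⁻¹ = D.L c u := by
  have e1 : ∀ v, D.X a b v * D.L c u = D.L c u * D.X a b v := fun v => D.commXL hab h2 h4 v u
  have e2 : ∀ v, D.X a.swap b.swap v * D.L c u = D.L c u * D.X a.swap b.swap v := fun v =>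
    D.commXL hab.ss (by rwa [sw_sw]) (by rwa [sw_sw]) v u
  rw [mul_inv_eq_iff_eq_mul, wS, mul_assoc, e1, ← mul_assoc, mul_assoc (D.X a b t), e2, ← mul_assoc, e1]
  group

end WS

end Data

end Cfsg.Agent.Lib.SpN
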