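import Mathlib
import Cfsg.Agent.Lib.SpN1

/-!
# Steinberg relations of `Sp_{2m}`: long Weyl elements; monomial action
-/

set_option autoImplicit false

namespace Cfsg.Agent.Lib.SpN

open Cfsg.Agent.Lib.SpRoot (sg sg_swap sg_mul_self sg_ne_zero)

namespace Data

variable {m : ℕ} {K Γ : Type*} [Field K] [Group Γ] (D : Data m K Γ)

section WL
variable {a : Ix m} {t : K} (ht : t ≠ 0)

/-- `L a v` on `x_{ā d}`. -/
lemma La_Xb {d : Ix m} (h1 : d ≠ a) (h2 : d ≠ a.swap) (v w : K) :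
    D.L a v * D.X a.swap d w * (D.L a v)⁻¹ = D.X a d (sg a * w * v) * D.L d (-w * w * v) * D.X a.swap d w := by
  have sd : Sh d a.swap := ⟨h2, sw_ne_sw h1.symm⟩
  have h := D.relD' sd w v
  simp only [sw_sw, sg_sw] at h
  have e : - -sg a * w * v = sg a * w * v := by ring
  rw [e] at h
  rw [D.Xsym sd.symm, h, D.Xsym (show Sh a d from ⟨h1.symm, h2⟩)]

include ht

/-- `w` on `x_{ā d}`. -/
lemma TL2 {d : Ix m} (h1 : d ≠ a) (h2 : d ≠ a.swap) (u : K) :
    D.wL a t * D.X a.swap d u * (D.wL a t)⁻¹ = D.X a d (sg a * t * u) := by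
  have sX : Sh a d := ⟨h1.symm, h2⟩
  have sY : Sh a.swap d := ⟨h2.symm, by rwa [sw_sw]⟩
  have hw : D.wL a t * D.X a.swap d u * (D.wL a t)⁻¹ =
      D.L a t * (D.L a.swap t⁻¹ * (D.L a t * D.X a.swap d u * (D.L a t)⁻¹) * (D.L a.swap t⁻¹)⁻¹) * (D.L a t)⁻¹ := by
    simp only [wL]
    group
  rw [hw, D.La_Xb h1 h2]
  have hx : ∀ r, D.L a.swap t⁻¹ * D.X a d r * (D.L a.swap t⁻¹)⁻¹ =
      D.X a.swap d (-sg a * r * t⁻¹) * D.L d (-r * r * t⁻¹) * D.X a d r := by
    intro r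
    have := D.La_Xb (a := a.swap) (d := d) h2 (by rwa [sw_sw]) t⁻¹ r
    rw [sw_sw, sg_sw] at this
    exact this
  have cLd : ∀ r s, D.L a.swap r * D.L d s = D.L d s * D.L a.swap r := fun r s =>
    D.commLL (by rwa [sw_sw]) r s
  have cLY : ∀ r s, D.L a.swap r * D.X a.swap d s = D.X a.swap d s * D.L a.swap r := fun r s =>
    (D.commXL sY (sw_ne _).symm (by grind [sw_sw, sw_ne, sw_inj]) s r).symm
  have cLd' : ∀ r s, D.L a r * D.L d s = D.L d s * D.L a r := fun r s =>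
    D.commLL (by grind [sw_sw, sw_ne, sw_inj]) r s
  have cLX : ∀ r s, D.L a r * D.X a d s = D.X a d s * D.L a r := fun r s =>
    (D.commXL sX (sw_ne _).symm (by grind [sw_sw, sw_ne, sw_inj]) s r).symm
  have cZX : ∀ r s, D.L d r * D.X a d s = D.X a d s * D.L d r := fun r s =>
    (D.commXL sX (by grind [sw_sw, sw_ne, sw_inj]) (sw_ne _).symm s r).symm
  have cZY : ∀ r s, D.L d r * D.X a.swap d s = D.X a.swap d s * D.L d r := fun r s =>
    (D.commXL sY (by grind [sw_sw, sw_ne, sw_inj]) (sw_ne _).symm s r).symm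
  set p := sg a * u * t with hp
  set W := u * u * t with hW
  have e1 : -u * u * t = -W := by rw [hW]; ring
  rw [e1]
  have e2 : D.L a.swap t⁻¹ * (D.X a d p * D.L d (-W) * D.X a.swap d u) * (D.L a.swap t⁻¹)⁻¹ =
      D.X a.swap d (-sg a * p * t⁻¹) * D.L d (-p * p * t⁻¹) * D.X a d p * D.L d (-W) * D.X a.swap d u := by
    have : D.L a.swap t⁻¹ * (D.X a d p * D.L d (-W) * D.X a.swap d u) * (D.L a.swap t⁻¹)⁻¹ =
        (D.L a.swap t⁻¹ * D.X a d p * (D.L a.swap t⁻¹)⁻¹) * (D.L a.swap t⁻¹ * D.L d (-W) * (D.L a.swap t⁻¹)⁻¹) *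
          (D.L a.swap t⁻¹ * D.X a.swap d u * (D.L a.swap t⁻¹)⁻¹) := by group
    rw [this, hx, cLd, cLY]
    group
  rw [e2]
  have e3 : -sg a * p * t⁻¹ = -u := by
    have h5 := sg_mul_self (K := K) a
    have h7 : t * t⁻¹ = 1 := mul_inv_cancel₀ ht
    rw [hp]
    linear_combination (-(u * (t * t⁻¹))) * h5 + (-u) * h7
  have e4 : -p * p * t⁻¹ = -W := by
    have h5 := sg_mul_self (K := K) a
    have h7 : t * t⁻¹ = 1 := mul_inv_cancel₀ ht
    rw [hp, hW]
    linear_combination (-(u * u * t * (t * t⁻¹))) * h5 + (-(u * u * t)) * h7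
  rw [e3, e4]
  have hy1 : D.L a t * D.X a.swap d (-u) * (D.L a t)⁻¹ = D.X a d (-p) * D.L d (-W) * D.X a.swap d (-u) := by
    rw [D.La_Xb h1 h2]
    have e5 : sg a * -u * t = -p := by rw [hp]; ring
    have e6 : - -u * -u * t = -W := by rw [hW]; ring
    rw [e5, e6]
  have hy2 : D.L a t * D.X a.swap d u * (D.L a t)⁻¹ = D.X a d p * D.L d (-W) * D.X a.swap d u := by
    rw [D.La_Xb h1 h2, e1]
  have e7 : D.L a t * (D.X a.swap d (-u) * D.L d (-W) * D.X a d p * D.L d (-W) * D.X a.swap d u) * (D.L a t)⁻¹ =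
      (D.X a d (-p) * D.L d (-W) * D.X a.swap d (-u)) * D.L d (-W) * D.X a d p * D.L d (-W) *
        (D.X a d p * D.L d (-W) * D.X a.swap d u) := by
    have : D.L a t * (D.X a.swap d (-u) * D.L d (-W) * D.X a d p * D.L d (-W) * D.X a.swap d u) * (D.L a t)⁻¹ =
        (D.L a t * D.X a.swap d (-u) * (D.L a t)⁻¹) * (D.L a t * D.L d (-W) * (D.L a t)⁻¹) *
          (D.L a t * D.X a d p * (D.L a t)⁻¹) * (D.L a t * D.L d (-W) * (D.L a t)⁻¹) *
          (D.L a t * D.X a.swap d u * (D.L a t)⁻¹) := by group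
    rw [this, hy1, hy2, cLd', cLX]
    group
  rw [e7]
  have cXY : ∀ r, D.X a d r * D.X a.swap d u = D.X a.swap d u * D.L d (2 * sg a * r * u) * D.X a d r := by
    intro r
    have := D.relC' (show Sh d a from ⟨h1, ne_sw_symm h2⟩) r u
    rw [D.Xsym (show Sh a d from ⟨h1.symm, h2⟩), mul_assoc, ← mul_assoc _ (D.L d _), ← this]
    group
  have e8 : 2 * sg a * (p + p) * u = W + W + W + W := by
    have h5 := sg_mul_self (K := K) a
    rw [hp, hW]
    linear_combination (4 * u * u * t) * h5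
  calc D.X a d (-p) * D.L d (-W) * D.X a.swap d (-u) * D.L d (-W) * D.X a d p * D.L d (-W) *
        (D.X a d p * D.L d (-W) * D.X a.swap d u)
      = D.X a d (-p) * (D.L d (-W) * D.X a.swap d (-u)) * D.L d (-W) * (D.X a d p * D.L d (-W)) *
        (D.X a d p * D.L d (-W) * D.X a.swap d u) := by group
    _ = D.X a d (-p) * (D.X a.swap d (-u) * D.L d (-W)) * D.L d (-W) * (D.L d (-W) * D.X a d p) *
        (D.L d (-W) * D.X a d p * D.X a.swap d u) := by
        rw [cZY, ← cZX (-W) p]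
    _ = D.X a d (-p) * D.X a.swap d (-u) * (D.L d (-W) * D.L d (-W) * D.L d (-W)) * (D.X a d p * D.L d (-W)) * D.X a d p * D.X a.swap d u := by group
    _ = D.X a d (-p) * D.X a.swap d (-u) * (D.L d (-W) * D.L d (-W) * D.L d (-W)) * (D.L d (-W) * D.X a d p) * D.X a d p * D.X a.swap d u := by
        rw [← cZX (-W) p]
    _ = D.X a d (-p) * D.X a.swap d (-u) * (D.L d (-W) * D.L d (-W) * D.L d (-W) * D.L d (-W)) * (D.X a d p * D.X a d p * D.X a.swap d u) := by group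
    _ = D.X a d (-p) * D.X a.swap d (-u) * D.L d (-W + -W + -W + -W) * (D.X a d (p + p) * D.X a.swap d u) := by
        rw [D.addL, D.addL, D.addL, D.addX sX]
    _ = D.X a d (-p) * D.X a.swap d (-u) * D.L d (-W + -W + -W + -W) * (D.X a.swap d u * D.L d (W + W + W + W) * D.X a d (p + p)) := by
        rw [cXY, e8]
    _ = D.X a d (-p) * D.X a.swap d (-u) * (D.L d (-W + -W + -W + -W) * D.X a.swap d u) * D.L d (W + W + W + W) * D.X a d (p + p) := by group
    _ = D.X a d (-p) * D.X a.swap d (-u) * (D.X a.swap d u * D.L d (-W + -W + -W + -W)) * D.L d (W + W + W + W) * D.X a d (p + p) := by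
        rw [cZY]
    _ = D.X a d (-p) * (D.X a.swap d (-u) * D.X a.swap d u) * (D.L d (-W + -W + -W + -W) * D.L d (W + W + W + W)) * D.X a d (p + p) := by group
    _ = D.X a d (-p) * D.X a d (p + p) := by
        rw [D.addX sY, D.addL, neg_add_cancel, D.X_zero sY]
        have : -W + -W + -W + -W + (W + W + W + W) = 0 := by ring
        rw [this, D.L_zero]
        group
    _ = D.X a d (sg a * t * u) := by
        rw [D.addX sX]
        congr 1
        rw [hp]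
        ring

/-- `w` on `x_{a d}`. -/
lemma TL1 {d : Ix m} (h1 : d ≠ a) (h2 : d ≠ a.swap) (u : K) :
    D.wL a t * D.X a d u * (D.wL a t)⁻¹ = D.X a.swap d (-sg a * t⁻¹ * u) := by
  have h := D.TL2 (t := -t) (neg_ne_zero.2 ht) h1 h2 (-sg a * t⁻¹ * u)
  rw [← D.wL_inv] at h
  have e : sg a * -t * (-sg a * t⁻¹ * u) = u := by
    have h5 := sg_mul_self (K := K) a
    have h7 : t * t⁻¹ = 1 := mul_inv_cancel₀ ht
    linear_combination (t * t⁻¹ * u) * h5 + u * h7
  rw [e] at h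
  rw [← h]
  group

/-- `w` on `L a`. -/
lemma TL3 {b : Ix m} (hab : Sh a b) (u : K) :
    D.wL a t * D.L a u * (D.wL a t)⁻¹ = D.L a.swap (t⁻¹ * t⁻¹ * u) := by
  have hne := hab.1
  have hne' := hab.2
  have h := D.relD hab 1 u
  simp only [one_mul, mul_one] at h
  have c1 : -sg a * t⁻¹ * 1 = -sg a * t⁻¹ := by ring
  have h1 : D.wL a t * D.X a b 1 * (D.wL a t)⁻¹ = D.X a.swap b (-sg a * t⁻¹) := by
    rw [D.TL1 ht hne.symm hne', c1]
  have hfix : ∀ v, D.wL a t * D.L b.swap v * (D.wL a t)⁻¹ = D.L b.swap v := by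
    intro v
    have e1 : ∀ r, D.L a r * D.L b.swap v = D.L b.swap v * D.L a r := fun r =>
      D.commLL (by grind [sw_sw, sw_ne, sw_inj]) r v
    have e2 : ∀ r, D.L a.swap r * D.L b.swap v = D.L b.swap v * D.L a.swap r := fun r =>
      D.commLL (by grind [sw_sw, sw_ne, sw_inj]) r v
    rw [mul_inv_eq_iff_eq_mul, wL, mul_assoc, e1, ← mul_assoc, mul_assoc (D.L a t), e2, ← mul_assoc, e1]
    group
  have sA : Sh a.swap b := hab.sl
  have sB : Sh a b.swap := hab.sr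
  set q : K := -sg a * t⁻¹ with hq
  have h3 := D.relD sA q u
  have e1 : D.wL a t * (D.X a b 1 * D.L b.swap u * (D.X a b 1)⁻¹) * (D.wL a t)⁻¹ =
      D.X a.swap b q * D.L b.swap u * (D.X a.swap b q)⁻¹ := by
    have : D.wL a t * (D.X a b 1 * D.L b.swap u * (D.X a b 1)⁻¹) * (D.wL a t)⁻¹ =
        (D.wL a t * D.X a b 1 * (D.wL a t)⁻¹) * (D.wL a t * D.L b.swap u * (D.wL a t)⁻¹) *
          (D.wL a t * D.X a b 1 * (D.wL a t)⁻¹)⁻¹ := by group
    rw [this, h1, hfix]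
  have h4 : D.wL a t * D.X b.swap a (sg b * u) * (D.wL a t)⁻¹ = D.X b.swap a.swap (sg b * q * u) := by
    rw [D.Xsym sB.symm, D.TL1 ht (by grind [sw_sw, sw_ne, sw_inj]) (by grind [sw_sw, sw_ne, sw_inj]), D.Xsym sB.sl]
    congr 1
    rw [hq]
    ring
  have e2 : D.wL a t * (D.L b.swap u * D.X b.swap a (sg b * u) * D.L a u) * (D.wL a t)⁻¹ =
      D.L b.swap u * D.X b.swap a.swap (sg b * q * u) * (D.wL a t * D.L a u * (D.wL a t)⁻¹) := by
    have : D.wL a t * (D.L b.swap u * D.X b.swap a (sg b * u) * D.L a u) * (D.wL a t)⁻¹ =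
        (D.wL a t * D.L b.swap u * (D.wL a t)⁻¹) * (D.wL a t * D.X b.swap a (sg b * u) * (D.wL a t)⁻¹) *
          (D.wL a t * D.L a u * (D.wL a t)⁻¹) := by group
    rw [this, hfix, h4]
  rw [h, e2, h3] at e1
  have e3 := mul_left_cancel e1
  have e4 : q * q * u = t⁻¹ * t⁻¹ * u := by
    have h5 := sg_mul_self (K := K) a
    rw [hq]
    linear_combination (t⁻¹ * t⁻¹ * u) * h5
  rw [e3, e4]

/-- `w` on `L ā`. -/
lemma TL4 {b : Ix m} (hab : Sh a b) (u : K) :
    D.wL a t * D.L a.swap u * (D.wL a t)⁻¹ = D.L a (t * t * u) := by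
  have h := D.TL3 (t := -t) (neg_ne_zero.2 ht) hab (t * t * u)
  rw [← D.wL_inv] at h
  have e : (-t)⁻¹ * (-t)⁻¹ * (t * t * u) = u := by
    have h7 : t * t⁻¹ = 1 := mul_inv_cancel₀ ht
    rw [inv_neg]
    linear_combination (t * t⁻¹ * u + u) * h7
  rw [e] at h
  rw [← h]
  group

/-- `w` off its roots. -/
lemma TL5 {c d : Ix m} (hcd : Sh c d) (h1 : c ≠ a) (h2 : c ≠ a.swap) (h5 : d ≠ a) (h6 : d ≠ a.swap) (u : K) :
    D.wL a t * D.X c d u * (D.wL a t)⁻¹ = D.X c d u := by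
  have e1 : ∀ v, D.L a v * D.X c d u = D.X c d u * D.L a v := fun v =>
    (D.commXL hcd (ne_sw_symm h2) (ne_sw_symm h6) u v).symm
  have e2 : ∀ v, D.L a.swap v * D.X c d u = D.X c d u * D.L a.swap v := fun v =>
    (D.commXL hcd (ne_sw_symm (by rwa [sw_sw])) (ne_sw_symm (by rwa [sw_sw])) u v).symm
  rw [mul_inv_eq_iff_eq_mul, wL, mul_assoc, e1, ← mul_assoc, mul_assoc (D.L a t), e2, ← mul_assoc, e1]
  group

lemma TL6 {c : Ix m} (h1 : c ≠ a) (h2 : c ≠ a.swap) (u : K) :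
    D.wL a t * D.L c u * (D.wL a t)⁻¹ = D.L c u := by
  have e1 : ∀ v, D.L a v * D.L c u = D.L c u * D.L a v := fun v => D.commLL h2 v u
  have e2 : ∀ v, D.L a.swap v * D.L c u = D.L c u * D.L a.swap v := fun v => D.commLL (by rwa [sw_sw]) v u
  rw [mul_inv_eq_iff_eq_mul, wL, mul_assoc, e1, ← mul_assoc, mul_assoc (D.L a t), e2, ← mul_assoc, e1]
  group

end WL

/-- A monomial conjugation. -/
structure Acts (D : Data m K Γ) (g : Γ) (π : Ix m → Ix m) (c : Ix m → K) : Prop where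
  sw : ∀ x, π x.swap = (π x).swap
  inj : Function.Injective π
  rel : ∀ x, c x * c x.swap = sg x * sg (π x)
  X : ∀ {x y}, Sh x y → ∀ u, g * D.X x y u * g⁻¹ = D.X (π x) (π y) (c x * c y * u)
  Lg : ∀ x u, g * D.L x u * g⁻¹ = D.L (π x) (c x * c x * u)

namespace Acts

variable {D} {g g' : Γ} {π π' : Ix m → Ix m} {c c' : Ix m → K}

lemma sh (A : D.Acts g π c) {x y : Ix m} (h : Sh x y) : Sh (π x) (π y) := by
  refine ⟨fun e => h.1 (A.inj e), ?_⟩
  rw [← A.sw]
  exact fun e => h.2 (A.inj e)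

lemma c_ne (A : D.Acts g π c) (x : Ix m) : c x ≠ 0 := by
  intro h0
  have := A.rel x
  rw [h0, zero_mul] at this
  exact mul_ne_zero (sg_ne_zero x) (sg_ne_zero (π x)) this.symm

lemma congr (A : D.Acts g π c) (h1 : ∀ x, π x = π' x) (h2 : ∀ x, c x = c' x) : D.Acts g π' c' := by
  have e1 : π = π' := funext h1
  have e2 : c = c' := funext h2
  rw [← e1, ← e2]
  exact A

lemma mul (A : D.Acts g π c) (B : D.Acts g' π' c') :
    D.Acts (g * g') (fun x => π (π' x)) (fun x => c (π' x) * c' x) where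
  sw x := by rw [B.sw, A.sw]
  inj := A.inj.comp B.inj
  rel x := by
    have h1 := A.rel (π' x)
    have h2 := B.rel x
    have h3 := sg_mul_self (K := K) (π' x)
    rw [B.sw]
    linear_combination (c' x * c' x.swap) * h1 + (sg (π' x) * sg (π (π' x))) * h2 +
      (sg x * sg (π (π' x))) * h3
  X {x y} h u := by
    have e : g * g' * D.X x y u * (g * g')⁻¹ = g * (g' * D.X x y u * g'⁻¹) * g⁻¹ := by group
    rw [e, B.X h, A.X (B.sh h)]
    congr 1
    ring
  Lg x u := by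
    have e : g * g' * D.L x u * (g * g')⁻¹ = g * (g' * D.L x u * g'⁻¹) * g⁻¹ := by group
    rw [e, B.Lg, A.Lg]
    congr 1
    ring

lemma one : D.Acts 1 (fun x => x) (fun _ => 1) where
  sw _ := rfl
  inj := fun _ _ h => h
  rel x := by
    have := sg_mul_self (K := K) x
    rw [this]
    ring
  X {x y} _ u := by simp
  Lg x u := by simp

lemma sg_rel (A : D.Acts g π c) (x y : Ix m) {t : K} (ht : t ≠ 0) :
    c x.swap * c y.swap * (sg x * sg y * t⁻¹) = sg (π x) * sg (π y) * (c x * c y * t)⁻¹ := by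
  have hx := A.c_ne x
  have hy := A.c_ne y
  have h1 := A.rel x
  have h2 := A.rel y
  have h3 := sg_mul_self (K := K) x
  have h4 := sg_mul_self (K := K) y
  have e1 : c x.swap = sg x * sg (π x) * (c x)⁻¹ := by
    rw [← h1]
    field_simp
  have e2 : c y.swap = sg y * sg (π y) * (c y)⁻¹ := by
    rw [← h2]
    field_simp
  rw [e1, e2, mul_inv, mul_inv]
  linear_combination (sg y * sg y * sg (π x) * sg (π y) * (c x)⁻¹ * (c y)⁻¹ * t⁻¹) * h3 +
    (sg (π x) * sg (π y) * (c x)⁻¹ * (c y)⁻¹ * t⁻¹) * h4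

/-- Weyl elements under monomial conjugation. -/
lemma wS (A : D.Acts g π c) {x y : Ix m} (h : Sh x y) {t : K} (ht : t ≠ 0) :
    g * D.wS x y t * g⁻¹ = D.wS (π x) (π y) (c x * c y * t) := by
  have e : g * D.wS x y t * g⁻¹ = (g * D.X x y t * g⁻¹) *
      (g * D.X x.swap y.swap (sg x * sg y * t⁻¹) * g⁻¹) * (g * D.X x y t * g⁻¹) := by
    rw [Data.wS]
    group
  rw [e, A.X h, A.X h.ss, Data.wS, A.sw, A.sw, A.sg_rel x y ht]

lemma wL (A : D.Acts g π c) (x : Ix m) (t : K) :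
    g * D.wL x t * g⁻¹ = D.wL (π x) (c x * c x * t) := by
  have e : g * D.wL x t * g⁻¹ = (g * D.L x t * g⁻¹) * (g * D.L x.swap t⁻¹ * g⁻¹) * (g * D.L x t * g⁻¹) := by
    rw [Data.wL]
    group
  rw [e, A.Lg, A.Lg, Data.wL, A.sw]
  congr 3
  have hx := A.c_ne x
  have h1 := A.rel x
  have h3 := sg_mul_self (K := K) x
  have h4 := sg_mul_self (K := K) (π x)
  rw [mul_inv, mul_inv]
  have e1 : c x.swap = sg x * sg (π x) * (c x)⁻¹ := by
    rw [← h1]
    field_simp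
  rw [e1]
  have h5 : (sg x * sg (π x) * (c x)⁻¹) * (sg x * sg (π x) * (c x)⁻¹) = (c x)⁻¹ * (c x)⁻¹ := by
    linear_combination (sg (π x) * sg (π x) * (c x)⁻¹ * (c x)⁻¹) * h3 + ((c x)⁻¹ * (c x)⁻¹) * h4
  rw [h5]

end Acts

section piS

variable (a b : Ix m) (t : K)

/-- The permutation of the short Weyl element. -/
def piS (x : Ix m) : Ix m :=
  if x = a then b.swap else if x = b.swap then a else if x = b then a.swap else if x = a.swap then b else x

/-- The scalars of the short Weyl element. -/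
def cS (x : Ix m) : K :=
  if x = a then -sg b * t⁻¹ else if x = b.swap then sg b * t else if x = b then -sg a * t⁻¹ else
    if x = a.swap then sg a * t else 1

/-- The permutation of the long Weyl element. -/
def piL (x : Ix m) : Ix m :=
  if x = a then a.swap else if x = a.swap then a else x

/-- The scalars of the long Weyl element. -/
def cL (x : Ix m) : K :=
  if x = a then -sg a * t⁻¹ else if x = a.swap then sg a * t else 1

end piS

section ActsS

variable {a b : Ix m} (hab : Sh a b)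
include hab

omit hab in
lemma classS (a b x : Ix m) : a = x ∨ b.swap = x ∨ b = x ∨ a.swap = x ∨ (x ≠ a ∧ x ≠ b.swap ∧ x ≠ b ∧ x ≠ a.swap) := by
  tauto

lemma fS1 : a ≠ b.swap := ne_sw_symm hab.2
lemma fS2 : a ≠ b := hab.1
lemma fS3 : a ≠ a.swap := (sw_ne a).symm
lemma fS4 : b ≠ b.swap := (sw_ne b).symm
lemma fS5 : b ≠ a.swap := hab.2
lemma fS6 : b.swap ≠ a.swap := sw_ne_sw hab.1.symm

lemma piS_a : piS a b a = b.swap := by simp [piS]
lemma piS_b' : piS a b b.swap = a := by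
  simp [piS, (fS1 hab).symm]
lemma piS_b : piS a b b = a.swap := by
  simp [piS, (fS2 hab).symm, fS4 hab]
lemma piS_a' : piS a b a.swap = b := by
  simp [piS, (fS3 hab).symm, (fS5 hab).symm, (fS6 hab).symm]
omit hab in
lemma piS_off {x : Ix m} (h : x ≠ a ∧ x ≠ b.swap ∧ x ≠ b ∧ x ≠ a.swap) : piS a b x = x := by
  obtain ⟨h1, h2, h3, h4⟩ := h
  simp [piS, h1, h2, h3, h4]

lemma cS_a (t : K) : cS a b t a = -sg b * t⁻¹ := by simp [cS]
lemma cS_b' (t : K) : cS a b t b.swap = sg b * t := by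
  simp [cS, (fS1 hab).symm]
lemma cS_b (t : K) : cS a b t b = -sg a * t⁻¹ := by
  simp [cS, (fS2 hab).symm, fS4 hab]
lemma cS_a' (t : K) : cS a b t a.swap = sg a * t := by
  simp [cS, (fS3 hab).symm, (fS5 hab).symm, (fS6 hab).symm]
omit hab in
lemma cS_off {x : Ix m} (t : K) (h : x ≠ a ∧ x ≠ b.swap ∧ x ≠ b ∧ x ≠ a.swap) : cS a b t x = 1 := by
  obtain ⟨h1, h2, h3, h4⟩ := h
  simp [cS, h1, h2, h3, h4]

omit hab in
lemma off_sw {x : Ix m} (h : x ≠ a ∧ x ≠ b.swap ∧ x ≠ b ∧ x ≠ a.swap) :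
    x.swap ≠ a ∧ x.swap ≠ b.swap ∧ x.swap ≠ b ∧ x.swap ≠ a.swap := by
  obtain ⟨h1, h2, h3, h4⟩ := h
  refine ⟨?_, sw_ne_sw h3, ?_, sw_ne_sw h1⟩
  · rintro rfl
    exact h4 (sw_sw x).symm
  · rintro rfl
    exact h2 (sw_sw x).symm

lemma piS_sw (x : Ix m) : piS a b x.swap = (piS a b x).swap := by
  rcases classS a b x with rfl | rfl | rfl | rfl | h
  · rw [piS_a hab, piS_a' hab, sw_sw]
  · rw [piS_b' hab, sw_sw, piS_b hab]
  · rw [piS_b hab, piS_b' hab, sw_sw]
  · rw [sw_sw, piS_a hab, piS_a' hab]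
  · rw [piS_off h, piS_off (off_sw h)]

lemma piS_invol (x : Ix m) : piS a b (piS a b x) = x := by
  rcases classS a b x with rfl | rfl | rfl | rfl | h
  · rw [piS_a hab, piS_b' hab]
  · rw [piS_b' hab, piS_a hab]
  · rw [piS_b hab, piS_a' hab]
  · rw [piS_a' hab, piS_b hab]
  · rw [piS_off h, piS_off h]

lemma piS_inj : Function.Injective (piS a b) := fun x y h => by
  rw [← piS_invol hab x, ← piS_invol hab y, h]

variable {t : K} (ht : t ≠ 0)
include ht

lemma cS_rel (x : Ix m) : cS a b t x * cS a b t x.swap = sg x * sg (piS a b x) := by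
  have h5 := sg_mul_self (K := K) a
  have h6 := sg_mul_self (K := K) b
  have h7 : t * t⁻¹ = 1 := mul_inv_cancel₀ ht
  rcases classS a b x with rfl | rfl | rfl | rfl | h
  · rw [cS_a hab, cS_a' hab, piS_a hab, sg_sw]
    linear_combination (-sg a * sg b) * h7
  · rw [sw_sw, cS_b' hab, cS_b hab, piS_b' hab, sg_sw]
    linear_combination (-sg a * sg b) * h7
  · rw [cS_b hab, cS_b' hab, piS_b hab, sg_sw]
    linear_combination (-sg a * sg b) * h7
  · rw [sw_sw, cS_a' hab, cS_a hab, piS_a' hab, sg_sw]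
    linear_combination (-sg a * sg b) * h7
  · rw [piS_off h, cS_off t h, cS_off t (off_sw h), sg_mul_self]
    ring

lemma PS_sym {x y : Ix m} (h : Sh x y) {u : K}
    (hP : D.wS a b t * D.X x y u * (D.wS a b t)⁻¹ =
      D.X (piS a b x) (piS a b y) (cS a b t x * cS a b t y * u)) :
    D.wS a b t * D.X y x u * (D.wS a b t)⁻¹ =
      D.X (piS a b y) (piS a b x) (cS a b t y * cS a b t x * u) := by
  have hs : Sh (piS a b x) (piS a b y) :=
    ⟨fun e => h.1 (piS_inj hab e), by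
      rw [← piS_sw hab]
      exact fun e => h.2 (piS_inj hab e)⟩
  rw [D.Xsym h.symm, hP, D.Xsym hs, mul_comm (cS a b t x)]

lemma PS_ab' (u : K) : D.wS a b t * D.X a b.swap u * (D.wS a b t)⁻¹ =
    D.X (piS a b a) (piS a b b.swap) (cS a b t a * cS a b t b.swap * u) := by
  rw [D.T5 hab ht, piS_a hab, piS_b' hab, cS_a hab, cS_b' hab, D.Xsym hab.sr.symm]
  congr 1
  have h6 := sg_mul_self (K := K) b
  have h7 : t * t⁻¹ = 1 := mul_inv_cancel₀ ht
  linear_combination (t * t⁻¹ * u) * h6 + u * h7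

lemma PS_ab (u : K) : D.wS a b t * D.X a b u * (D.wS a b t)⁻¹ =
    D.X (piS a b a) (piS a b b) (cS a b t a * cS a b t b * u) := by
  rw [D.T10 hab ht, piS_a hab, piS_b hab, cS_a hab, cS_b hab, D.Xsym hab.ss]
  congr 1
  ring

lemma PS_a'b' (u : K) : D.wS a b t * D.X a.swap b.swap u * (D.wS a b t)⁻¹ =
    D.X (piS a b a.swap) (piS a b b.swap) (cS a b t a.swap * cS a b t b.swap * u) := by
  rw [D.T11 hab ht, piS_a' hab, piS_b' hab, cS_a' hab, cS_b' hab, D.Xsym hab]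
  congr 1
  ring

lemma PS_ba' (u : K) : D.wS a b t * D.X b a.swap u * (D.wS a b t)⁻¹ =
    D.X (piS a b b) (piS a b a.swap) (cS a b t b * cS a b t a.swap * u) := by
  rw [D.wS_symm hab, D.T5 hab.symm ht, piS_b hab, piS_a' hab, cS_b hab, cS_a' hab, D.Xsym hab.symm.sr.symm]
  congr 1
  have h6 := sg_mul_self (K := K) a
  have h7 : t * t⁻¹ = 1 := mul_inv_cancel₀ ht
  linear_combination (t * t⁻¹ * u) * h6 + u * h7

lemma PS_off {y : Ix m} (h : y ≠ a ∧ y ≠ b.swap ∧ y ≠ b ∧ y ≠ a.swap) (u : K) :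
    (D.wS a b t * D.X a y u * (D.wS a b t)⁻¹ = D.X (piS a b a) (piS a b y) (cS a b t a * cS a b t y * u)) ∧
    (D.wS a b t * D.X b.swap y u * (D.wS a b t)⁻¹ = D.X (piS a b b.swap) (piS a b y) (cS a b t b.swap * cS a b t y * u)) ∧
    (D.wS a b t * D.X b y u * (D.wS a b t)⁻¹ = D.X (piS a b b) (piS a b y) (cS a b t b * cS a b t y * u)) ∧
    (D.wS a b t * D.X a.swap y u * (D.wS a b t)⁻¹ = D.X (piS a b a.swap) (piS a b y) (cS a b t a.swap * cS a b t y * u)) := by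
  obtain ⟨h1, h2, h3, h4⟩ := h
  have hh : y ≠ a ∧ y ≠ b.swap ∧ y ≠ b ∧ y ≠ a.swap := ⟨h1, h2, h3, h4⟩
  refine ⟨?_, ?_, ?_, ?_⟩
  · rw [D.T1 hab ht h1 h4 h3 h2, piS_a hab, piS_off hh, cS_a hab, cS_off t hh, mul_one]
  · rw [D.T2 hab ht h1 h4 h3 h2, piS_b' hab, piS_off hh, cS_b' hab, cS_off t hh, mul_one]
  · rw [D.T3 hab ht h1 h4 h3 h2, piS_b hab, piS_off hh, cS_b hab, cS_off t hh, mul_one]
  · rw [D.T4 hab ht h1 h4 h3 h2, piS_a' hab, piS_off hh, cS_a' hab, cS_off t hh, mul_one]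

lemma PS_X {x y : Ix m} (hxy : Sh x y) (u : K) : D.wS a b t * D.X x y u * (D.wS a b t)⁻¹ =
    D.X (piS a b x) (piS a b y) (cS a b t x * cS a b t y * u) := by
  have h0 := hxy.1
  have h0' := hxy.2
  rcases classS a b x with rfl | rfl | rfl | rfl | hx <;> rcases classS a b y with rfl | rfl | rfl | rfl | hy
  · exact absurd rfl h0
  · exact D.PS_ab' hab ht u
  · exact D.PS_ab hab ht u
  · exact absurd rfl h0'
  · exact (D.PS_off hab ht hy u).1
  · exact D.PS_sym hab ht hxy.symm (D.PS_ab' hab ht u)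
  · exact absurd rfl h0
  · exact absurd (sw_sw _).symm h0'
  · exact D.PS_sym hab ht hxy.symm (D.PS_a'b' hab ht u)
  · exact (D.PS_off hab ht hy u).2.1
  · exact D.PS_sym hab ht hxy.symm (D.PS_ab hab ht u)
  · exact absurd rfl h0'
  · exact absurd rfl h0
  · exact D.PS_ba' hab ht u
  · exact (D.PS_off hab ht hy u).2.2.1
  · exact absurd (sw_sw _).symm h0'
  · exact D.PS_a'b' hab ht u
  · exact D.PS_sym hab ht hxy.symm (D.PS_ba' hab ht u)
  · exact absurd rfl h0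
  · exact (D.PS_off hab ht hy u).2.2.2
  · exact D.PS_sym hab ht hxy.symm (D.PS_off hab ht hx u).1
  · exact D.PS_sym hab ht hxy.symm (D.PS_off hab ht hx u).2.1
  · exact D.PS_sym hab ht hxy.symm (D.PS_off hab ht hx u).2.2.1
  · exact D.PS_sym hab ht hxy.symm (D.PS_off hab ht hx u).2.2.2
  · obtain ⟨h1, h2, h3, h4⟩ := hx
    obtain ⟨h5, h6, h7, h8⟩ := hy
    rw [D.T12 hab ht hxy h1 h4 h3 h2 h5 h8 h7 h6, piS_off ⟨h1, h2, h3, h4⟩, piS_off ⟨h5, h6, h7, h8⟩,
      cS_off t ⟨h1, h2, h3, h4⟩, cS_off t ⟨h5, h6, h7, h8⟩]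
    simp

lemma PS_L (x : Ix m) (u : K) : D.wS a b t * D.L x u * (D.wS a b t)⁻¹ =
    D.L (piS a b x) (cS a b t x * cS a b t x * u) := by
  have h5 := sg_mul_self (K := K) a
  have h6 := sg_mul_self (K := K) b
  rcases classS a b x with rfl | rfl | rfl | rfl | hx
  · rw [D.T6 hab ht, piS_a hab, cS_a hab]
    congr 1
    linear_combination (-(t⁻¹ * t⁻¹ * u)) * h6
  · rw [D.T7 hab ht, piS_b' hab, cS_b' hab]
    congr 1
    linear_combination (-(t * t * u)) * h6
  · rw [D.T8 hab ht, piS_b hab, cS_b hab]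
    congr 1
    linear_combination (-(t⁻¹ * t⁻¹ * u)) * h5
  · rw [D.T9 hab ht, piS_a' hab, cS_a' hab]
    congr 1
    linear_combination (-(t * t * u)) * h5
  · obtain ⟨h1, h2, h3, h4⟩ := hx
    rw [D.T13 hab ht h1 h4 h3 h2, piS_off ⟨h1, h2, h3, h4⟩, cS_off t ⟨h1, h2, h3, h4⟩]
    simp

/-- The short Weyl elements are monomial. -/
theorem acts_wS : D.Acts (D.wS a b t) (piS a b) (cS a b t) where
  sw := piS_sw hab
  inj := piS_inj hab
  rel := cS_rel hab ht
  X := D.PS_X hab ht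
  Lg := D.PS_L hab ht

end ActsS

section ActsL

variable {a : Ix m}

omit [Group Γ] in
lemma classL (a x : Ix m) : a = x ∨ a.swap = x ∨ (x ≠ a ∧ x ≠ a.swap) := by
  tauto

lemma piL_a : piL a a = a.swap := by simp [piL]
lemma piL_a' : piL a a.swap = a := by simp [piL, sw_ne a]
lemma piL_off {x : Ix m} (h : x ≠ a ∧ x ≠ a.swap) : piL a x = x := by
  simp [piL, h.1, h.2]
lemma cL_a (t : K) : cL a t a = -sg a * t⁻¹ := by simp [cL]
lemma cL_a' (t : K) : cL a t a.swap = sg a * t := by simp [cL, sw_ne a]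
lemma cL_off (t : K) {x : Ix m} (h : x ≠ a ∧ x ≠ a.swap) : cL a t x = 1 := by
  simp [cL, h.1, h.2]

lemma offL_sw {x : Ix m} (h : x ≠ a ∧ x ≠ a.swap) : x.swap ≠ a ∧ x.swap ≠ a.swap := by
  obtain ⟨h1, h2⟩ := h
  refine ⟨?_, sw_ne_sw h1⟩
  rintro rfl
  exact h2 (sw_sw x).symm

lemma piL_sw (x : Ix m) : piL a x.swap = (piL a x).swap := by
  rcases classL a x with rfl | rfl | h
  · rw [piL_a, piL_a', sw_sw]
  · rw [sw_sw, piL_a, piL_a']
  · rw [piL_off h, piL_off (offL_sw h)]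

lemma piL_invol (x : Ix m) : piL a (piL a x) = x := by
  rcases classL a x with rfl | rfl | h
  · rw [piL_a, piL_a']
  · rw [piL_a', piL_a]
  · rw [piL_off h, piL_off h]

lemma piL_inj : Function.Injective (piL a) := fun x y h => by
  rw [← piL_invol x, ← piL_invol y, h]

variable {t : K} (ht : t ≠ 0) {b : Ix m} (hab : Sh a b)
include ht

lemma cL_rel (x : Ix m) : cL a t x * cL a t x.swap = sg x * sg (piL a x) := by
  have h5 := sg_mul_self (K := K) a
  have h7 : t * t⁻¹ = 1 := mul_inv_cancel₀ ht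
  rcases classL a x with rfl | rfl | h
  · rw [cL_a, cL_a', piL_a, sg_sw]
    linear_combination (-(sg a * sg a)) * h7
  · rw [sw_sw, cL_a', cL_a, piL_a', sg_sw]
    linear_combination (-(sg a * sg a)) * h7
  · rw [piL_off h, cL_off t h, cL_off t (offL_sw h), sg_mul_self]
    ring

lemma PL_sym {x y : Ix m} (h : Sh x y) {u : K}
    (hP : D.wL a t * D.X x y u * (D.wL a t)⁻¹ =
      D.X (piL a x) (piL a y) (cL a t x * cL a t y * u)) :
    D.wL a t * D.X y x u * (D.wL a t)⁻¹ =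
      D.X (piL a y) (piL a x) (cL a t y * cL a t x * u) := by
  have hs : Sh (piL a x) (piL a y) :=
    ⟨fun e => h.1 (piL_inj e), by
      rw [← piL_sw]
      exact fun e => h.2 (piL_inj e)⟩
  rw [D.Xsym h.symm, hP, D.Xsym hs, mul_comm (cL a t x)]

lemma PL_X {x y : Ix m} (hxy : Sh x y) (u : K) : D.wL a t * D.X x y u * (D.wL a t)⁻¹ =
    D.X (piL a x) (piL a y) (cL a t x * cL a t y * u) := by
  have h0 := hxy.1
  have h0' := hxy.2
  rcases classL a x with rfl | rfl | hx <;> rcases classL a y with rfl | rfl | hy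
  · exact absurd rfl h0
  · exact absurd rfl h0'
  · rw [D.TL1 ht hy.1 hy.2, piL_a, piL_off hy, cL_a, cL_off t hy, mul_one]
  · exact absurd (sw_sw _).symm h0'
  · exact absurd rfl h0
  · rw [D.TL2 ht hy.1 hy.2, piL_a', piL_off hy, cL_a', cL_off t hy, mul_one]
  · have := D.TL1 ht hx.1 hx.2 u
    rw [D.Xsym hxy, this, piL_a, piL_off hx, cL_a, cL_off t hx, one_mul, D.Xsym hxy.symm.sl]
  · have := D.TL2 ht hx.1 hx.2 u
    rw [D.Xsym hxy, this, piL_a', piL_off hx, cL_a', cL_off t hx, one_mul, D.Xsym (show Sh a x from ⟨hx.1.symm, hx.2⟩)]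
  · rw [D.TL5 ht hxy hx.1 hx.2 hy.1 hy.2, piL_off hx, piL_off hy, cL_off t hx, cL_off t hy]
    simp

lemma PL_L (hall : ∀ x : Ix m, ∃ b, Sh x b) (x : Ix m) (u : K) : D.wL a t * D.L x u * (D.wL a t)⁻¹ =
    D.L (piL a x) (cL a t x * cL a t x * u) := by
  have h5 := sg_mul_self (K := K) a
  obtain ⟨b, hab⟩ := hall a
  rcases classL a x with rfl | rfl | hx
  · rw [D.TL3 ht hab, piL_a, cL_a]
    congr 1
    linear_combination (-(t⁻¹ * t⁻¹ * u)) * h5
  · rw [D.TL4 ht hab, piL_a', cL_a']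
    congr 1
    linear_combination (-(t * t * u)) * h5
  · rw [D.TL6 ht hx.1 hx.2, piL_off hx, cL_off t hx]
    simp

/-- The long Weyl elements are monomial. -/
theorem acts_wL (hall : ∀ x : Ix m, ∃ b, Sh x b) : D.Acts (D.wL a t) (piL a) (cL a t) where
  sw := piL_sw
  inj := piL_inj
  rel := cL_rel ht
  X := D.PL_X ht
  Lg := D.PL_L ht hall

end ActsL

end Data

end Cfsg.Agent.Lib.SpN
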