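import Mathlib
import Cfsg.Agent.Lib.SpN2
import Cfsg.Agent.Lib.StN1

/-!
# Steinberg relations of `Sp_{2m}`: rank one subgroups and the torus
-/

set_option autoImplicit false

namespace Cfsg.Agent.Lib.SpN

open Cfsg.Agent.Lib.SpRoot (sg sg_swap sg_mul_self sg_ne_zero)
open Cfsg.Agent.Lib.St2
open Cfsg.Agent.Lib.StN (MW MD coe_MW coe_MD)

section Mat

variable {K : Type*} [Field K]

lemma I6 {u v : K} (hu : u ≠ 0) (hv : v ≠ 0) : MW u * MW v = MD (-(u / v)) := by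
  have h : -(u / v) ≠ 0 := neg_ne_zero.2 (div_ne_zero hu hv)
  apply Subtype.ext
  simp only [Matrix.SpecialLinearGroup.coe_mul, coe_MW hu, coe_MW hv, coe_MD h, Matrix.mul_fin_two]
  ext i j
  fin_cases i <;> fin_cases j <;> simp <;> field_simp

lemma I7 {t : K} (ht : t ≠ 0) : mx K (true, t) = mx K (false, t⁻¹) * MW t * mx K (false, t⁻¹) := by
  apply Subtype.ext
  simp only [Matrix.SpecialLinearGroup.coe_mul, mx_true, mx_false, coe_MW ht, Matrix.mul_fin_two]
  ext i j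
  fin_cases i <;> fin_cases j <;> simp <;> field_simp <;> ring

lemma I8 {r : K} (hr : r ≠ 0) : mx K (false, -r) * mx K (true, r⁻¹) * mx K (false, -r) = MW r⁻¹ := by
  apply Subtype.ext
  simp only [Matrix.SpecialLinearGroup.coe_mul, mx_true, mx_false, coe_MW (inv_ne_zero hr), Matrix.mul_fin_two]
  ext i j
  fin_cases i <;> fin_cases j <;> simp <;> field_simp <;> ring_nf <;> simp

lemma I9 {c d : K} (hc : c ≠ 0) (hd : d ≠ 0) : MD c * MW d = MW (c * d) := by
  apply Subtype.ext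
  simp only [Matrix.SpecialLinearGroup.coe_mul, coe_MD hc, coe_MW hd, coe_MW (mul_ne_zero hc hd), Matrix.mul_fin_two]
  ext i j
  fin_cases i <;> fin_cases j <;> simp <;> field_simp

lemma I10 {c d : K} (hc : c ≠ 0) (hd : d ≠ 0) : MW d * MD c = MW (d / c) := by
  apply Subtype.ext
  simp only [Matrix.SpecialLinearGroup.coe_mul, coe_MD hc, coe_MW hd, coe_MW (div_ne_zero hd hc), Matrix.mul_fin_two]
  ext i j
  fin_cases i <;> fin_cases j <;> simp <;> field_simp

end Mat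

/-- A rank one pair. -/
structure Rk {K Γ : Type*} [Field K] [Group Γ] (x y : K → Γ) : Prop where
  addx : ∀ s t, x s * x t = x (s + t)
  addy : ∀ s t, y s * y t = y (s + t)
  conjx : ∀ {t : K}, t ≠ 0 → ∀ u, (x t * y (-t⁻¹) * x t) * x u * (x t * y (-t⁻¹) * x t)⁻¹ = y (-(t⁻¹ ^ 2 * u))
  conjy : ∀ {t : K}, t ≠ 0 → ∀ u, (y t * x (-t⁻¹) * y t) * y u * (y t * x (-t⁻¹) * y t)⁻¹ = x (-(t⁻¹ ^ 2 * u))

theorem Rk.exists_psi {K Γ : Type*} [Field K] [Group Γ] [Finite K] {x y : K → Γ} (h : Rk x y) :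
    ∃ ψ : Matrix.SpecialLinearGroup (Fin 2) K →* Γ,
      (∀ t, ψ (mx K (true, t)) = x t) ∧ (∀ t, ψ (mx K (false, t)) = y t) := by
  obtain ⟨E, hE1, hE2⟩ := St2.main K
  let f : Bool × K → Γ := fun p => if p.1 then x p.2 else y p.2
  have hf : ∀ r ∈ rels K, FreeGroup.lift f r = 1 := by
    rintro r (⟨β, t, u, rfl⟩ | ⟨β, t, u, ht, rfl⟩)
    · simp only [map_mul, map_inv, FreeGroup.lift_apply_of, mul_inv_eq_one]
      cases β
      · exact h.addy t u
      · exact h.addx t u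
    · simp only [map_mul, map_inv, FreeGroup.lift_apply_of, mul_inv_eq_one]
      cases β
      · exact h.conjy ht u
      · exact h.conjx ht u
  refine ⟨(PresentedGroup.toGroup hf).comp E.symm.toMonoidHom, ?_, ?_⟩
  · intro t
    have h' : E (PresentedGroup.of (true, t)) = mx K (true, t) := Subtype.ext (hE1 t)
    simp only [MonoidHom.comp_apply, MulEquiv.toMonoidHom_eq_coe, MonoidHom.coe_coe]
    rw [← h', MulEquiv.symm_apply_apply, PresentedGroup.toGroup.of]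
    rfl
  · intro t
    have h' : E (PresentedGroup.of (false, t)) = mx K (false, t) := Subtype.ext (hE2 t)
    simp only [MonoidHom.comp_apply, MulEquiv.toMonoidHom_eq_coe, MonoidHom.coe_coe]
    rw [← h', MulEquiv.symm_apply_apply, PresentedGroup.toGroup.of]
    rfl

namespace Data

variable {m : ℕ} {K Γ : Type*} [Field K] [Group Γ] (D : Data m K Γ)

/-- Long root torus. -/
def dd (a : Ix m) (c : K) : Γ := D.wL a c * D.wL a (-1)

section Long

variable (hall : ∀ x : Ix m, ∃ b, Sh x b) (a : Ix m)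
include hall

lemma rkL : Rk (D.L a) (fun t => D.L a.swap (-t)) where
  addx := D.addL a
  addy s t := by
    rw [D.addL, neg_add]
  conjx {t} ht u := by
    obtain ⟨b, hab⟩ := hall a
    have e : D.L a t * D.L a.swap (- -t⁻¹) * D.L a t = D.wL a t := by
      rw [neg_neg, wL]
    rw [e, D.TL3 ht hab]
    congr 1
    ring
  conjy {t} ht u := by
    obtain ⟨b, hab⟩ := hall a.swap
    have ht' : -t ≠ 0 := neg_ne_zero.2 ht
    have e : D.L a.swap (-t) * D.L a (-t⁻¹) * D.L a.swap (-t) = D.wL a.swap (-t) := by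
      rw [wL, sw_sw, inv_neg]
    rw [e, D.TL3 ht' hab, sw_sw]
    congr 1
    rw [inv_neg]
    ring

variable [Finite K]

lemma exists_psiL : ∃ ψ : Matrix.SpecialLinearGroup (Fin 2) K →* Γ,
    (∀ t, ψ (mx K (true, t)) = D.L a t) ∧ (∀ t, ψ (mx K (false, t)) = D.L a.swap (-t)) ∧
    (∀ t, ψ (MW t) = D.wL a t) ∧ (∀ t, ψ (MD t) = D.dd a t) := by
  obtain ⟨ψ, h1, h2⟩ := (D.rkL hall a).exists_psi
  have h3 : ∀ t, ψ (MW t) = D.wL a t := by
    intro t
    rw [MW, map_mul, map_mul, h1, h2, neg_neg, wL]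
  refine ⟨ψ, h1, h2, h3, ?_⟩
  intro t
  rw [MD, map_mul, h3, h3, dd]

lemma dd_mul {c d : K} (hc : c ≠ 0) (hd : d ≠ 0) : D.dd a c * D.dd a d = D.dd a (c * d) := by
  obtain ⟨ψ, -, -, -, h4⟩ := D.exists_psiL hall a
  rw [← h4, ← h4, ← h4, ← map_mul, Cfsg.Agent.Lib.StN.I4 hc hd]

lemma dd_one : D.dd a (1 : K) = 1 := by
  obtain ⟨ψ, -, -, -, h4⟩ := D.exists_psiL hall a
  rw [← h4, Cfsg.Agent.Lib.StN.I5, map_one]

lemma dd_inv {c : K} (hc : c ≠ 0) : (D.dd a c)⁻¹ = D.dd a c⁻¹ := by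
  rw [inv_eq_iff_mul_eq_one, D.dd_mul hall a hc (inv_ne_zero hc), mul_inv_cancel₀ hc, D.dd_one hall]

lemma wL_mul {u v : K} (hu : u ≠ 0) (hv : v ≠ 0) : D.wL a u * D.wL a v = D.dd a (-(u / v)) := by
  obtain ⟨ψ, -, -, h3, h4⟩ := D.exists_psiL hall a
  rw [← h3, ← h3, ← h4, ← map_mul, I6 hu hv]

lemma wL_sw {r : K} (hr : r ≠ 0) : D.wL a.swap r = D.wL a r⁻¹ := by
  obtain ⟨ψ, h1, h2, h3, -⟩ := D.exists_psiL hall a
  rw [← h3, ← I8 hr, map_mul, map_mul, h1, h2, wL, sw_sw]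
  congr 1
  · congr 1
    · rw [neg_neg]
  · rw [neg_neg]

lemma dd_sw {c : K} (hc : c ≠ 0) : D.dd a.swap c = D.dd a c⁻¹ := by
  have hm : (-1 : K) ≠ 0 := neg_ne_zero.2 one_ne_zero
  rw [dd, D.wL_sw hall a hc, D.wL_sw hall a hm, dd]
  congr 2
  simp

lemma dd_wL {c d : K} (hc : c ≠ 0) (hd : d ≠ 0) : D.dd a c * D.wL a d = D.wL a (c * d) := by
  obtain ⟨ψ, -, -, h3, h4⟩ := D.exists_psiL hall a
  rw [← h3, ← h3, ← h4, ← map_mul, I9 hc hd]

lemma wL_dd {c d : K} (hc : c ≠ 0) (hd : d ≠ 0) : D.wL a d * D.dd a c = D.wL a (d / c) := by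
  obtain ⟨ψ, -, -, h3, h4⟩ := D.exists_psiL hall a
  rw [← h3, ← h3, ← h4, ← map_mul, I10 hc hd]

end Long

section Short

variable {a b : Ix m} (hab : Sh a b)
include hab

lemma rkS : Rk (D.X a b) (fun t => D.X a.swap b.swap (-(sg a * sg b) * t)) where
  addx := D.addX hab
  addy s t := by
    rw [D.addX hab.ss]
    congr 1
    ring
  conjx {t} ht u := by
    have e : D.X a b t * D.X a.swap b.swap (-(sg a * sg b) * -t⁻¹) * D.X a b t = D.wS a b t := by
      rw [wS]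
      congr 3
      ring
    rw [e, D.T10 hab ht]
    congr 1
    ring
  conjy {t} ht u := by
    have h5 := sg_mul_self (K := K) a
    have h6 := sg_mul_self (K := K) b
    have hk : (sg a * sg b : K) ≠ 0 := mul_ne_zero (sg_ne_zero a) (sg_ne_zero b)
    have hk2 : (sg a * sg b : K) * (sg a * sg b) = 1 := by
      linear_combination (sg b * sg b) * h5 + h6
    have ht' : -(sg a * sg b) * t ≠ 0 := mul_ne_zero (neg_ne_zero.2 hk) ht
    have hkinv : (sg a * sg b : K)⁻¹ = sg a * sg b := by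
      rw [inv_eq_iff_eq_inv]
      exact eq_inv_of_mul_eq_one_left hk2
    have e : D.X a.swap b.swap (-(sg a * sg b) * t) * D.X a b (-t⁻¹) * D.X a.swap b.swap (-(sg a * sg b) * t) =
        D.wS a.swap b.swap (-(sg a * sg b) * t) := by
      rw [wS, sw_sw, sw_sw, sg_sw, sg_sw]
      congr 3
      rw [mul_inv, inv_neg, hkinv]
      linear_combination (t⁻¹) * hk2
    rw [e, D.T10 hab.ss ht', sw_sw, sw_sw, sg_sw, sg_sw]
    congr 1
    rw [mul_inv, inv_neg, hkinv]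
    linear_combination (-(t⁻¹ * t⁻¹ * u) * ((sg a * sg b) * (sg a * sg b) + 1)) * hk2

variable [Finite K]

lemma exists_psiS : ∃ ψ : Matrix.SpecialLinearGroup (Fin 2) K →* Γ,
    (∀ t, ψ (mx K (true, t)) = D.X a b t) ∧
    (∀ t, ψ (mx K (false, t)) = D.X a.swap b.swap (-(sg a * sg b) * t)) ∧
    (∀ t, ψ (MW t) = D.wS a b t) := by
  obtain ⟨ψ, h1, h2⟩ := (D.rkS hab).exists_psi
  refine ⟨ψ, h1, h2, ?_⟩
  intro t
  rw [MW, map_mul, map_mul, h1, h2, wS]
  congr 3
  ring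

end Short

section Torus

variable (hall : ∀ x : Ix m, ∃ b, Sh x b)

/-- The scalars of the long torus. -/
def cD (a : Ix m) (c : K) (x : Ix m) : K := if x = a then c else if x = a.swap then c⁻¹ else 1

lemma cD_a (a : Ix m) (c : K) : cD a c a = c := by simp [cD]
lemma cD_a' (a : Ix m) (c : K) : cD a c a.swap = c⁻¹ := by simp [cD, sw_ne a]
lemma cD_off (a : Ix m) (c : K) {x : Ix m} (h : x ≠ a ∧ x ≠ a.swap) : cD a c x = 1 := by simp [cD, h.1, h.2]

include hall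

lemma acts_dd (a : Ix m) {c : K} (hc : c ≠ 0) : D.Acts (D.dd a c) (fun x => x) (cD a c) := by
  have hm : (-1 : K) ≠ 0 := neg_ne_zero.2 one_ne_zero
  have A := (D.acts_wL hc hall (a := a)).mul (D.acts_wL hm hall (a := a))
  refine A.congr piL_invol ?_
  intro x
  have h5 := sg_mul_self (K := K) a
  rcases classL a x with rfl | rfl | h
  · rw [piL_a, cL_a', cL_a, cD_a, inv_neg, inv_one]
    linear_combination (c) * h5
  · rw [piL_a', cL_a, cL_a', cD_a']
    linear_combination (c⁻¹) * h5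
  · rw [piL_off h, cL_off _ h, cL_off _ h, cD_off a c h, one_mul]

omit hall in
lemma conj_dd {g : Γ} {π : Ix m → Ix m} {c : Ix m → K} (A : D.Acts g π c) (x : Ix m) (e : K)
    (hx : c x * c x = 1) : g * D.dd x e * g⁻¹ = D.dd (π x) e := by
  have h : g * D.dd x e * g⁻¹ = (g * D.wL x e * g⁻¹) * (g * D.wL x (-1) * g⁻¹) := by
    rw [dd]
    group
  rw [h, A.wL, A.wL, hx, one_mul, one_mul, dd]

omit hall in
lemma cS_sq {a b : Ix m} (hab : Sh a b) (x : Ix m) : cS a b (1 : K) x * cS a b 1 x = 1 := by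
  have h5 := sg_mul_self (K := K) a
  have h6 := sg_mul_self (K := K) b
  rcases classS a b x with rfl | rfl | rfl | rfl | h
  · rw [cS_a hab, inv_one]
    linear_combination h6
  · rw [cS_b' hab]
    linear_combination h6
  · rw [cS_b hab, inv_one]
    linear_combination h5
  · rw [cS_a' hab]
    linear_combination h5
  · rw [cS_off 1 h, one_mul]

lemma conj_wL_wS {a b : Ix m} (hab : Sh a b) {r t : K} (hr : r ≠ 0) (ht : t ≠ 0) :
    D.wL b.swap r * D.wS a b t * (D.wL b.swap r)⁻¹ = D.wS a b.swap (-sg b * r * t) := by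
  have A := D.acts_wL hr hall (a := b.swap)
  have h1 : a ≠ b.swap ∧ a ≠ b.swap.swap := ⟨ne_sw_symm hab.2, by rw [sw_sw]; exact hab.1⟩
  rw [A.wS hab ht, piL_off h1, cL_off _ h1]
  have h2 := piL_a' (a := b.swap)
  have h3 := cL_a' (a := b.swap) r
  rw [sw_sw] at h2 h3
  rw [h2, h3, sg_sw]
  congr 1
  ring

variable [Finite K]

lemma wS_sq {a b : Ix m} (hab : Sh a b) : D.wS a b (1 : K) * D.wS a b 1 = D.dd a (-1) * D.dd b (-1) := by
  have hm : (-1 : K) ≠ 0 := neg_ne_zero.2 one_ne_zero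
  have h6 := sg_mul_self (K := K) b
  set ε : K := -sg b with hε
  have hε0 : ε ≠ 0 := neg_ne_zero.2 (sg_ne_zero b)
  have hεε : ε * ε = 1 := by rw [hε]; linear_combination h6
  have hε1 : -ε ≠ 0 := neg_ne_zero.2 hε0
  set s := D.wS a b (1 : K) with hs
  set W := D.wL b.swap ε with hW
  have hWi : W⁻¹ = D.wL b.swap (-ε) := D.wL_inv _ _
  have e1 : W * s * W⁻¹ = D.wS a b.swap 1 := by
    rw [hW, hs, D.conj_wL_wS hall hab hε0 one_ne_zero]
    congr 1
    rw [hε]
    linear_combination h6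
  have e2 : W⁻¹ * s * W = D.wS a b.swap (-1) := by
    have := D.conj_wL_wS hall hab hε1 (one_ne_zero (α := K))
    rw [← hs] at this
    rw [hWi]
    rw [show W = (D.wL b.swap (-ε))⁻¹ by rw [← hWi, inv_inv]]
    rw [this]
    congr 1
    rw [hε]
    linear_combination (-1) * h6
  have e3 : (W * s * W⁻¹) * (W⁻¹ * s * W) = 1 := by
    rw [e1, e2, ← D.wS_inv hab.sr, mul_inv_cancel]
  have e4 : s * (W⁻¹ * W⁻¹) * s = W⁻¹ * W⁻¹ := by
    have : s * (W⁻¹ * W⁻¹) * s = W⁻¹ * ((W * s * W⁻¹) * (W⁻¹ * s * W)) * W⁻¹ := by group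
    rw [this, e3]
    group
  have hD : W⁻¹ * W⁻¹ = D.dd b.swap (-1) := by
    rw [hWi, D.wL_mul hall _ hε1 hε1, div_self hε1]
  rw [hD] at e4
  have e5 : s * D.dd b.swap (-1) * s⁻¹ = D.dd a (-1) := by
    have := D.conj_dd (D.acts_wS hab (one_ne_zero (α := K))) b.swap (-1) (cS_sq hab _)
    rwa [piS_b' hab] at this
  have e6 : s * s = (s * D.dd b.swap (-1) * s⁻¹)⁻¹ * (s * D.dd b.swap (-1) * s) := by group
  rw [e6, e5, e4, D.dd_inv hall _ hm, D.dd_sw hall _ hm]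
  simp

/-- The short root torus in terms of the long root tori. -/
lemma h_short {a b : Ix m} (hab : Sh a b) {c : K} (hc : c ≠ 0) :
    D.wS a b c * D.wS a b (-1) = D.dd a c * D.dd b c := by
  have hm : (-1 : K) ≠ 0 := neg_ne_zero.2 one_ne_zero
  have h6 := sg_mul_self (K := K) b
  have sb : Sh a b.swap := hab.sr
  have hσ : (sg b : K) ≠ 0 := sg_ne_zero b
  set s₀ := D.wS a b.swap (1 : K) with hs₀
  have key : ∀ {r : K}, r ≠ 0 → D.wL b r * s₀ * (D.wL b r)⁻¹ = D.wS a b (sg b * r) := by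
    intro r hr
    have := D.conj_wL_wS hall sb hr (one_ne_zero (α := K))
    rw [sw_sw, sg_sw] at this
    rw [hs₀, this]
    congr 1
    ring
  have e1 : D.wS a b c = D.wL b (sg b * c) * s₀ * (D.wL b (sg b * c))⁻¹ := by
    rw [key (mul_ne_zero hσ hc)]
    congr 1
    linear_combination (-c) * h6
  have e2 : D.wS a b (-1) = D.wL b (sg b * (-1)) * s₀ * (D.wL b (sg b * (-1)))⁻¹ := by
    rw [key (mul_ne_zero hσ hm)]
    congr 1
    linear_combination h6
  have e3 : (D.wL b (sg b * c))⁻¹ * D.wL b (sg b * (-1)) = D.dd b (-c) := by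
    rw [D.wL_inv, D.wL_mul hall _ (neg_ne_zero.2 (mul_ne_zero hσ hc)) (mul_ne_zero hσ hm)]
    congr 1
    field_simp
  have e4 : s₀ * D.dd b (-c) = D.dd a (-c) * s₀ := by
    have := D.conj_dd (D.acts_wS sb (one_ne_zero (α := K))) b (-c) (cS_sq sb _)
    have h2 := piS_b' sb
    rw [sw_sw] at h2
    rw [h2, ← hs₀, mul_inv_eq_iff_eq_mul] at this
    exact this
  have e5 := D.wS_sq hall sb
  rw [← hs₀] at e5
  have e6 : ∀ r, r ≠ 0 → D.wL b r * D.dd a c = D.dd a c * D.wL b r := by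
    intro r hr
    have h1 : a ≠ b ∧ a ≠ b.swap := ⟨hab.1, ne_sw_symm hab.2⟩
    have := D.conj_dd (D.acts_wL hr hall (a := b)) a c (by rw [cL_off _ h1, one_mul])
    rw [piL_off h1, mul_inv_eq_iff_eq_mul] at this
    exact this
  have e7 : (D.wL b (sg b * (-1)))⁻¹ = D.wL b (sg b) := by
    rw [D.wL_inv]
    congr 1
    ring
  have hne : -c ≠ 0 := neg_ne_zero.2 hc
  calc D.wS a b c * D.wS a b (-1)
      = D.wL b (sg b * c) * (s₀ * ((D.wL b (sg b * c))⁻¹ * D.wL b (sg b * (-1))) * s₀) * (D.wL b (sg b * (-1)))⁻¹ := by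
        rw [e1, e2]
        group
    _ = D.wL b (sg b * c) * (D.dd a (-c) * (s₀ * s₀)) * (D.wL b (sg b * (-1)))⁻¹ := by
        rw [e3, e4]
        group
    _ = D.wL b (sg b * c) * (D.dd a (-c) * (D.dd a (-1) * D.dd b.swap (-1))) * D.wL b (sg b) := by
        rw [e5, e7]
    _ = D.wL b (sg b * c) * (D.dd a c * D.dd b (-1)) * D.wL b (sg b) := by
        rw [← mul_assoc (D.dd a (-c)), D.dd_mul hall _ hne hm, D.dd_sw hall _ hm]
        simp
    _ = D.dd a c * (D.wL b (sg b * c) * D.dd b (-1) * D.wL b (sg b)) := by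
        rw [← mul_assoc, e6 _ (mul_ne_zero hσ hc)]
        group
    _ = D.dd a c * D.dd b c := by
        rw [D.wL_dd hall _ hm (mul_ne_zero hσ hc), D.wL_mul hall _ (div_ne_zero (mul_ne_zero hσ hc) hm) hσ]
        congr 2
        field_simp

end Torus

end Data

end Cfsg.Agent.Lib.SpN
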