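import Mathlib
import Cfsg.Agent.Lib.SpN3

/-!
# Steinberg relations of type `D_m`: root elements, Weyl elements, monomial action
-/

set_option autoImplicit false
set_option linter.unusedVariables false
set_option linter.unusedSectionVars false

namespace Cfsg.Agent.Lib.DnN

open Cfsg.Agent.Lib.SpN (Ix Sh sw_sw sw_ne sw_inj sw_ne_sw ne_sw_symm)

section Idx
variable {m : ℕ}

/-- The underlying index. -/
def idx : Ix m → Fin m
  | Sum.inl i => i
  | Sum.inr i => i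

lemma idx_swap (a : Ix m) : idx a.swap = idx a := by cases a <;> rfl

lemma third (hm : 3 ≤ m) (a b : Ix m) : ∃ d : Ix m, d ≠ a ∧ d ≠ a.swap ∧ d ≠ b ∧ d ≠ b.swap := by
  classical
  obtain ⟨i, hi⟩ : ∃ i : Fin m, i ∉ ({idx a, idx b} : Finset (Fin m)) := by
    by_contra h
    push Not at h
    have h1 : (Finset.univ : Finset (Fin m)) ⊆ {idx a, idx b} := fun i _ => h i
    have h2 := Finset.card_le_card h1
    have h3 := Finset.card_le_two (a := idx a) (b := idx b)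
    simp only [Finset.card_univ, Fintype.card_fin] at h2
    omega
  simp only [Finset.mem_insert, Finset.mem_singleton, not_or] at hi
  refine ⟨Sum.inl i, ?_, ?_, ?_, ?_⟩
  · rintro rfl
    exact hi.1 rfl
  · intro e
    apply hi.1
    have := congrArg idx e
    rw [idx_swap] at this
    exact this
  · rintro rfl
    exact hi.2 rfl
  · intro e
    apply hi.2
    have := congrArg idx e
    rw [idx_swap] at this
    exact this

end Idx

/-- Elements of a group satisfying the Steinberg relations of `D_m`. -/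
structure Data (m : ℕ) (K Γ : Type*) [Field K] [Group Γ] where
  X : Ix m → Ix m → K → Γ
  Xsym : ∀ {a b}, Sh a b → ∀ t, X a b t = X b a (-t)
  addX : ∀ {a b}, Sh a b → ∀ s t, X a b s * X a b t = X a b (s + t)
  commXX : ∀ {a b c d}, Sh a b → Sh c d → c ≠ a.swap → c ≠ b.swap → d ≠ a.swap → d ≠ b.swap →
    ∀ t u, X a b t * X c d u = X c d u * X a b t
  relC : ∀ {a b d}, Sh a b → d ≠ a → d ≠ a.swap → d ≠ b → d ≠ b.swap → ∀ t u,
    X a b t * X b.swap d u * (X a b t)⁻¹ = X b.swap d u * X a d (t * u)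
  relC' : ∀ {a b}, Sh a b → ∀ t u, X a b t * X b.swap a u = X b.swap a u * X a b t

namespace Data

variable {m : ℕ} {K Γ : Type*} [Field K] [Group Γ] (D : Data m K Γ)

lemma X_zero {a b : Ix m} (h : Sh a b) : D.X a b 0 = 1 := by
  have := D.addX h 0 0
  rw [add_zero] at this
  exact mul_eq_left.1 this

lemma X_inv {a b : Ix m} (h : Sh a b) (t : K) : (D.X a b t)⁻¹ = D.X a b (-t) := by
  rw [inv_eq_iff_mul_eq_one, D.addX h, add_neg_cancel, D.X_zero h]

/-- Weyl element. -/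
def wS (a b : Ix m) (t : K) : Γ := D.X a b t * D.X a.swap b.swap t⁻¹ * D.X a b t

lemma wS_symm {a b : Ix m} (h : Sh a b) (t : K) : D.wS a b t = D.wS b a (-t) := by
  rw [wS, wS, D.Xsym h, D.Xsym h.ss, inv_neg]

lemma wS_inv {a b : Ix m} (h : Sh a b) (t : K) : (D.wS a b t)⁻¹ = D.wS a b (-t) := by
  simp only [wS, mul_inv_rev, D.X_inv h, D.X_inv h.ss, inv_neg, ← mul_assoc]

lemma conj_mul' (g x y : Γ) : g * (x * y) * g⁻¹ = (g * x * g⁻¹) * (g * y * g⁻¹) := by group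

section WS
variable {a b : Ix m} (hab : Sh a b) {t : K} (ht : t ≠ 0)
include hab

lemma wS_unfold (x : Γ) : D.wS a b t * x * (D.wS a b t)⁻¹ =
    D.X a b t * (D.X a.swap b.swap t⁻¹ *
      (D.X a b t * x * (D.X a b t)⁻¹) * (D.X a.swap b.swap t⁻¹)⁻¹) * (D.X a b t)⁻¹ := by
  simp only [wS]
  group

/-- The opposite root on `x_{ad}`. -/
lemma opp_Xa {d : Ix m} (h1 : d ≠ a) (h2 : d ≠ a.swap) (h3 : d ≠ b) (h4 : d ≠ b.swap) (s u : K) :
    D.X a.swap b.swap s * D.X a d u * (D.X a.swap b.swap s)⁻¹ =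
      D.X a d u * D.X b.swap d (-s * u) := by
  have hs : Sh b.swap a.swap := hab.ss.symm
  have := D.relC hs (d := d) h4 (by simpa [sw_sw] using h3) h2 (by simpa [sw_sw] using h1) (-s) u
  simp only [sw_sw] at this
  rw [D.Xsym hab.ss]
  exact this

include ht

/-- `w` on `x_{a d}`. -/
lemma T1 {d : Ix m} (h1 : d ≠ a) (h2 : d ≠ a.swap) (h3 : d ≠ b) (h4 : d ≠ b.swap) (u : K) :
    D.wS a b t * D.X a d u * (D.wS a b t)⁻¹ = D.X b.swap d (-t⁻¹ * u) := by
  have sad : Sh a d := ⟨h1.symm, h2⟩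
  have sbd : Sh b.swap d := ⟨h4.symm, by simpa [sw_sw] using h3⟩
  have hne := hab.1
  have hne' := hab.2
  rw [D.wS_unfold hab]
  have e1 : D.X a b t * D.X a d u * (D.X a b t)⁻¹ = D.X a d u := by
    rw [D.commXX hab sad (sw_ne a).symm hab.symm.ne' h2 h4]
    group
  rw [e1, D.opp_Xa hab h1 h2 h3 h4, conj_mul', e1]
  have e2 := D.relC hab h1 h2 h3 h4 t (-t⁻¹ * u)
  rw [e2]
  have e3 : t * (-t⁻¹ * u) = -u := by
    have h7 : t * t⁻¹ = 1 := mul_inv_cancel₀ ht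
    linear_combination (-u) * h7
  rw [e3]
  have c5 : D.X b.swap d (-t⁻¹ * u) * D.X a d (-u) = D.X a d (-u) * D.X b.swap d (-t⁻¹ * u) :=
    D.commXX sbd sad (by grind [sw_sw, sw_ne, sw_inj]) (by grind [sw_sw, sw_ne, sw_inj]) (by grind [sw_sw, sw_ne, sw_inj]) (by grind [sw_sw, sw_ne, sw_inj]) _ _
  rw [← mul_assoc, mul_assoc (D.X a d u), c5, ← mul_assoc, D.addX sad, add_neg_cancel, D.X_zero sad, one_mul]

lemma T2 {d : Ix m} (h1 : d ≠ a) (h2 : d ≠ a.swap) (h3 : d ≠ b) (h4 : d ≠ b.swap) (u : K) :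
    D.wS a b t * D.X b.swap d u * (D.wS a b t)⁻¹ = D.X a d (t * u) := by
  have sad : Sh a d := ⟨h1.symm, h2⟩
  have sbd : Sh b.swap d := ⟨h4.symm, by simpa [sw_sw] using h3⟩
  have hne := hab.1
  have hne' := hab.2
  rw [D.wS_unfold hab, D.relC hab h1 h2 h3 h4 t u]
  have e1 : D.X a.swap b.swap t⁻¹ * D.X b.swap d u *
      (D.X a.swap b.swap t⁻¹)⁻¹ = D.X b.swap d u := by
    rw [D.commXX hab.ss sbd (by grind [sw_sw, sw_ne, sw_inj]) (by grind [sw_sw, sw_ne, sw_inj])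
      (by grind [sw_sw, sw_ne, sw_inj]) (by grind [sw_sw, sw_ne, sw_inj])]
    group
  have e2 : D.X a.swap b.swap t⁻¹ * (D.X b.swap d u * D.X a d (t * u)) *
      (D.X a.swap b.swap t⁻¹)⁻¹ = D.X a d (t * u) := by
    rw [conj_mul', e1, D.opp_Xa hab h1 h2 h3 h4]
    have e3 : -t⁻¹ * (t * u) = -u := by
      have h7 : t * t⁻¹ = 1 := mul_inv_cancel₀ ht
      linear_combination (-u) * h7
    rw [e3]
    have c5 : D.X b.swap d u * D.X a d (t * u) = D.X a d (t * u) * D.X b.swap d u :=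
      D.commXX sbd sad (by grind [sw_sw, sw_ne, sw_inj]) (by grind [sw_sw, sw_ne, sw_inj])
        (by grind [sw_sw, sw_ne, sw_inj]) (by grind [sw_sw, sw_ne, sw_inj]) _ _
    rw [← mul_assoc, c5, mul_assoc, D.addX sbd, add_neg_cancel, D.X_zero sbd, mul_one]
  rw [e2, D.commXX hab sad (sw_ne a).symm hab.symm.ne' h2 h4]
  group

lemma T3 {d : Ix m} (h1 : d ≠ a) (h2 : d ≠ a.swap) (h3 : d ≠ b) (h4 : d ≠ b.swap) (u : K) :
    D.wS a b t * D.X b d u * (D.wS a b t)⁻¹ = D.X a.swap d (t⁻¹ * u) := by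
  rw [D.wS_symm hab]
  have := D.T1 hab.symm (neg_ne_zero.2 ht) h3 h4 h1 h2 u
  rw [this, inv_neg, neg_neg]

lemma T4 {d : Ix m} (h1 : d ≠ a) (h2 : d ≠ a.swap) (h3 : d ≠ b) (h4 : d ≠ b.swap) (u : K) :
    D.wS a b t * D.X a.swap d u * (D.wS a b t)⁻¹ = D.X b d (-t * u) := by
  rw [D.wS_symm hab]
  exact D.T2 hab.symm (neg_ne_zero.2 ht) h3 h4 h1 h2 u

/-- `w` on `x_{a b̄}`: it commutes. -/
lemma T5 (u : K) : D.wS a b t * D.X a b.swap u * (D.wS a b t)⁻¹ = D.X a b.swap u := by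
  have sa : Sh a b.swap := hab.sr
  have e1 : ∀ v, D.X a b v * D.X a b.swap u = D.X a b.swap u * D.X a b v := by
    intro v
    have := D.relC' hab v (-u)
    rw [D.Xsym sa.symm] at this
    rwa [neg_neg] at this
  have e2 : ∀ v, D.X a.swap b.swap v * D.X a b.swap u = D.X a b.swap u * D.X a.swap b.swap v := by
    intro v
    have := D.relC' (a := b.swap) (b := a.swap) hab.ss.symm (-v) u
    rw [sw_sw, ← D.Xsym hab.ss] at this
    exact this
  rw [mul_inv_eq_iff_eq_mul, wS, mul_assoc, e1, ← mul_assoc, mul_assoc (D.X a b t), e2, ← mul_assoc, e1]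
  group

lemma T5' (u : K) : D.wS a b t * D.X a.swap b u * (D.wS a b t)⁻¹ = D.X a.swap b u := by
  rw [D.wS_symm hab]
  have := D.T5 hab.symm (neg_ne_zero.2 ht) (-u)
  rw [D.Xsym hab.symm.sr] at this
  rw [neg_neg] at this
  exact this

end WS

section WS3
variable {a b : Ix m} (hab : Sh a b) {t : K} (ht : t ≠ 0) (hm : 3 ≤ m)
include hab ht hm

/-- `w` on `x_ab`. -/
lemma T10 (u : K) : D.wS a b t * D.X a b u * (D.wS a b t)⁻¹ = D.X a.swap b.swap (t⁻¹ * t⁻¹ * u) := by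
  obtain ⟨d, h1, h2, h3, h4⟩ := third hm a b
  have hne := hab.1
  have hne' := hab.2
  have sdb : Sh d.swap b := ⟨by grind [sw_sw, sw_ne, sw_inj], by grind [sw_sw, sw_ne, sw_inj]⟩
  have h0 := D.relC (a := a) (b := d) (d := b) ⟨h1.symm, h2⟩ hab.1.symm hab.2 h3.symm (by grind [sw_sw, sw_ne, sw_inj]) 1 u
  rw [one_mul, mul_inv_eq_iff_eq_mul] at h0
  have h5 : D.X a b u = (D.X d.swap b u)⁻¹ * (D.X a d 1 * D.X d.swap b u * (D.X a d 1)⁻¹) := by
    rw [mul_inv_eq_iff_eq_mul.2 h0]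
    group
  have e1 := D.T1 hab ht h1 h2 h3 h4 1
  have e2 : D.wS a b t * D.X d.swap b u * (D.wS a b t)⁻¹ = D.X a.swap d.swap (t⁻¹ * -u) := by
    rw [D.Xsym sdb]
    exact D.T3 hab ht (by grind [sw_sw, sw_ne, sw_inj]) (by grind [sw_sw, sw_ne, sw_inj]) (by grind [sw_sw, sw_ne, sw_inj]) (by grind [sw_sw, sw_ne, sw_inj]) _
  have e3 : ∀ (g p q : Γ), g * (q⁻¹ * (p * q * p⁻¹)) * g⁻¹ =
      (g * q * g⁻¹)⁻¹ * ((g * p * g⁻¹) * (g * q * g⁻¹) * (g * p * g⁻¹)⁻¹) := by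
    intros
    group
  conv_lhs => rw [h5]
  rw [e3, e1, e2]
  set p : K := -t⁻¹ * 1 with hp
  set r : K := t⁻¹ * -u with hr
  have sbd : Sh b.swap d := ⟨h4.symm, by simpa [sw_sw] using h3⟩
  have h6 := D.relC (a := b.swap) (b := d) (d := a.swap) sbd
    (by grind [sw_sw, sw_ne, sw_inj]) (by grind [sw_sw, sw_ne, sw_inj]) (by grind [sw_sw, sw_ne, sw_inj]) (by grind [sw_sw, sw_ne, sw_inj]) p (-r)
  have sad' : Sh a.swap d.swap := ⟨by grind [sw_sw, sw_ne, sw_inj], by grind [sw_sw, sw_ne, sw_inj]⟩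
  have e7 : D.X d.swap a.swap (-r) = D.X a.swap d.swap r := by rw [D.Xsym sad'.symm, neg_neg]
  rw [e7] at h6
  rw [h6, inv_mul_cancel_left, D.Xsym hab.ss.symm]
  congr 1
  rw [hp, hr]
  ring

/-- `w` on `x_{āb̄}`. -/
lemma T11 (u : K) : D.wS a b t * D.X a.swap b.swap u * (D.wS a b t)⁻¹ = D.X a b (t * t * u) := by
  have h := D.T10 hab (neg_ne_zero.2 ht) hm (t * t * u)
  rw [← D.wS_inv hab, inv_inv] at h
  have e : (-t)⁻¹ * (-t)⁻¹ * (t * t * u) = u := by
    have h7 : t * t⁻¹ = 1 := mul_inv_cancel₀ ht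
    rw [inv_neg]
    linear_combination (t * t⁻¹ * u + u) * h7
  rw [e] at h
  rw [← h]
  group

omit ht hm in
/-- `w` acts trivially off its roots. -/
lemma T12 {c d : Ix m} (hcd : Sh c d) (h1 : c ≠ a) (h2 : c ≠ a.swap) (h3 : c ≠ b) (h4 : c ≠ b.swap)
    (h5 : d ≠ a) (h6 : d ≠ a.swap) (h7 : d ≠ b) (h8 : d ≠ b.swap) (u : K) :
    D.wS a b t * D.X c d u * (D.wS a b t)⁻¹ = D.X c d u := by
  have e1 : ∀ v, D.X a b v * D.X c d u = D.X c d u * D.X a b v := fun v => D.commXX hab hcd h2 h4 h6 h8 v u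
  have e2 : ∀ v, D.X a.swap b.swap v * D.X c d u = D.X c d u * D.X a.swap b.swap v := fun v =>
    D.commXX hab.ss hcd (by rwa [sw_sw]) (by rwa [sw_sw]) (by rwa [sw_sw]) (by rwa [sw_sw]) v u
  rw [mul_inv_eq_iff_eq_mul, wS, mul_assoc, e1, ← mul_assoc, mul_assoc (D.X a b t), e2, ← mul_assoc, e1]
  group

end WS3

/-- A monomial conjugation. -/
structure Acts (D : Data m K Γ) (g : Γ) (π : Ix m → Ix m) (c : Ix m → K) : Prop where
  sw : ∀ x, π x.swap = (π x).swap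
  inj : Function.Injective π
  rel : ∀ x, c x * c x.swap = 1
  X : ∀ {x y}, Sh x y → ∀ u, g * D.X x y u * g⁻¹ = D.X (π x) (π y) (c x * c y * u)

namespace Acts

variable {D} {g g' : Γ} {π π' : Ix m → Ix m} {c c' : Ix m → K}

lemma sh (A : D.Acts g π c) {x y : Ix m} (h : Sh x y) : Sh (π x) (π y) := by
  refine ⟨fun e => h.1 (A.inj e), ?_⟩
  rw [← A.sw]
  exact fun e => h.2 (A.inj e)

lemma c_ne (A : D.Acts g π c) (x : Ix m) : c x ≠ 0 := by
  intro h0
  have := A.rel x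
  rw [h0, zero_mul] at this
  exact zero_ne_one this

lemma c_sw (A : D.Acts g π c) (x : Ix m) : c x.swap = (c x)⁻¹ :=
  eq_inv_of_mul_eq_one_right (A.rel x)

lemma congr (A : D.Acts g π c) (h1 : ∀ x, π x = π' x) (h2 : ∀ x, c x = c' x) : D.Acts g π' c' := by
  have e1 : π = π' := funext h1
  have e2 : c = c' := funext h2
  rw [← e1, ← e2]
  exact A

lemma mul (A : D.Acts g π c) (B : D.Acts g' π' c') :
    D.Acts (g * g') (fun x => π (π' x)) (fun x => c (π' x) * c' x) where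
  sw x := by rw [B.sw, A.sw]
  inj := A.inj.comp B.inj
  rel x := by
    have h1 := A.rel (π' x)
    have h2 := B.rel x
    rw [B.sw]
    linear_combination (c' x * c' x.swap) * h1 + h2
  X {x y} h u := by
    have e : g * g' * D.X x y u * (g * g')⁻¹ = g * (g' * D.X x y u * g'⁻¹) * g⁻¹ := by group
    rw [e, B.X h, A.X (B.sh h)]
    congr 1
    ring

lemma one : D.Acts 1 (fun x => x) (fun _ => 1) where
  sw _ := rfl
  inj := fun _ _ h => h
  rel x := by simp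
  X {x y} _ u := by simp

/-- Weyl elements under monomial conjugation. -/
lemma wS (A : D.Acts g π c) {x y : Ix m} (h : Sh x y) (t : K) :
    g * D.wS x y t * g⁻¹ = D.wS (π x) (π y) (c x * c y * t) := by
  have e : g * D.wS x y t * g⁻¹ = (g * D.X x y t * g⁻¹) *
      (g * D.X x.swap y.swap t⁻¹ * g⁻¹) * (g * D.X x y t * g⁻¹) := by
    rw [Data.wS]
    group
  rw [e, A.X h, A.X h.ss, Data.wS, A.sw, A.sw, A.c_sw, A.c_sw, mul_inv, mul_inv]

end Acts

section piS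

variable (a b : Ix m) (t : K)

/-- The permutation of the Weyl element. -/
def piS (x : Ix m) : Ix m :=
  if x = a then b.swap else if x = b.swap then a else if x = b then a.swap else if x = a.swap then b else x

/-- The scalars of the Weyl element. -/
def cS (x : Ix m) : K :=
  if x = a then -t⁻¹ else if x = b.swap then t else if x = b then t⁻¹ else
    if x = a.swap then -t else 1

end piS

section ActsS

variable {a b : Ix m} (hab : Sh a b)
include hab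

omit hab in
lemma classS (a b x : Ix m) : a = x ∨ b.swap = x ∨ b = x ∨ a.swap = x ∨ (x ≠ a ∧ x ≠ b.swap ∧ x ≠ b ∧ x ≠ a.swap) := by
  tauto

lemma fS1 : a ≠ b.swap := ne_sw_symm hab.2
lemma fS2 : a ≠ b := hab.1
lemma fS3 : a ≠ a.swap := (sw_ne a).symm
lemma fS4 : b ≠ b.swap := (sw_ne b).symm
lemma fS5 : b ≠ a.swap := hab.2
lemma fS6 : b.swap ≠ a.swap := sw_ne_sw hab.1.symm

lemma piS_a : piS a b a = b.swap := by simp [piS]
lemma piS_b' : piS a b b.swap = a := by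
  simp [piS, (fS1 hab).symm]
lemma piS_b : piS a b b = a.swap := by
  simp [piS, (fS2 hab).symm, fS4 hab]
lemma piS_a' : piS a b a.swap = b := by
  simp [piS, (fS3 hab).symm, (fS5 hab).symm, (fS6 hab).symm]
omit hab in
lemma piS_off {x : Ix m} (h : x ≠ a ∧ x ≠ b.swap ∧ x ≠ b ∧ x ≠ a.swap) : piS a b x = x := by
  obtain ⟨h1, h2, h3, h4⟩ := h
  simp [piS, h1, h2, h3, h4]

lemma cS_a (t : K) : cS a b t a = -t⁻¹ := by simp [cS]
lemma cS_b' (t : K) : cS a b t b.swap = t := by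
  simp [cS, (fS1 hab).symm]
lemma cS_b (t : K) : cS a b t b = t⁻¹ := by
  simp [cS, (fS2 hab).symm, fS4 hab]
lemma cS_a' (t : K) : cS a b t a.swap = -t := by
  simp [cS, (fS3 hab).symm, (fS5 hab).symm, (fS6 hab).symm]
omit hab in
lemma cS_off {x : Ix m} (t : K) (h : x ≠ a ∧ x ≠ b.swap ∧ x ≠ b ∧ x ≠ a.swap) : cS a b t x = 1 := by
  obtain ⟨h1, h2, h3, h4⟩ := h
  simp [cS, h1, h2, h3, h4]

omit hab in
lemma off_sw {x : Ix m} (h : x ≠ a ∧ x ≠ b.swap ∧ x ≠ b ∧ x ≠ a.swap) :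
    x.swap ≠ a ∧ x.swap ≠ b.swap ∧ x.swap ≠ b ∧ x.swap ≠ a.swap := by
  obtain ⟨h1, h2, h3, h4⟩ := h
  refine ⟨?_, sw_ne_sw h3, ?_, sw_ne_sw h1⟩
  · rintro rfl
    exact h4 (sw_sw x).symm
  · rintro rfl
    exact h2 (sw_sw x).symm

lemma piS_sw (x : Ix m) : piS a b x.swap = (piS a b x).swap := by
  rcases classS a b x with rfl | rfl | rfl | rfl | h
  · rw [piS_a hab, piS_a' hab, sw_sw]
  · rw [piS_b' hab, sw_sw, piS_b hab]
  · rw [piS_b hab, piS_b' hab, sw_sw]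
  · rw [sw_sw, piS_a hab, piS_a' hab]
  · rw [piS_off h, piS_off (off_sw h)]

lemma piS_invol (x : Ix m) : piS a b (piS a b x) = x := by
  rcases classS a b x with rfl | rfl | rfl | rfl | h
  · rw [piS_a hab, piS_b' hab]
  · rw [piS_b' hab, piS_a hab]
  · rw [piS_b hab, piS_a' hab]
  · rw [piS_a' hab, piS_b hab]
  · rw [piS_off h, piS_off h]

lemma piS_inj : Function.Injective (piS a b) := fun x y h => by
  rw [← piS_invol hab x, ← piS_invol hab y, h]

variable {t : K} (ht : t ≠ 0) (hm : 3 ≤ m)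
include ht

lemma cS_rel (x : Ix m) : cS a b t x * cS a b t x.swap = 1 := by
  have h7 : t * t⁻¹ = 1 := mul_inv_cancel₀ ht
  rcases classS a b x with rfl | rfl | rfl | rfl | h
  · rw [cS_a hab, cS_a' hab]
    linear_combination h7
  · rw [sw_sw, cS_b' hab, cS_b hab]
    linear_combination h7
  · rw [cS_b hab, cS_b' hab]
    linear_combination h7
  · rw [sw_sw, cS_a' hab, cS_a hab]
    linear_combination h7
  · rw [cS_off t h, cS_off t (off_sw h)]
    ring

omit ht in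
lemma PS_sym {x y : Ix m} (h : Sh x y) {u : K}
    (hP : ∀ u, D.wS a b t * D.X x y u * (D.wS a b t)⁻¹ =
      D.X (piS a b x) (piS a b y) (cS a b t x * cS a b t y * u)) :
    D.wS a b t * D.X y x u * (D.wS a b t)⁻¹ =
      D.X (piS a b y) (piS a b x) (cS a b t y * cS a b t x * u) := by
  have hs : Sh (piS a b x) (piS a b y) :=
    ⟨fun e => h.1 (piS_inj hab e), by
      rw [← piS_sw hab]
      exact fun e => h.2 (piS_inj hab e)⟩
  rw [D.Xsym h.symm, hP, D.Xsym hs]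
  congr 1
  ring

lemma PS_ab' (u : K) : D.wS a b t * D.X a b.swap u * (D.wS a b t)⁻¹ =
    D.X (piS a b a) (piS a b b.swap) (cS a b t a * cS a b t b.swap * u) := by
  rw [D.T5 hab ht, piS_a hab, piS_b' hab, cS_a hab, cS_b' hab, D.Xsym hab.sr.symm]
  congr 1
  have h7 : t * t⁻¹ = 1 := mul_inv_cancel₀ ht
  linear_combination (-u) * h7 + 0

lemma PS_a'b (u : K) : D.wS a b t * D.X a.swap b u * (D.wS a b t)⁻¹ =
    D.X (piS a b a.swap) (piS a b b) (cS a b t a.swap * cS a b t b * u) := by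
  rw [D.T5' hab ht, piS_a' hab, piS_b hab, cS_a' hab, cS_b hab, D.Xsym hab.sl]
  congr 1
  have h7 : t * t⁻¹ = 1 := mul_inv_cancel₀ ht
  linear_combination u * h7

include hm

lemma PS_ab (u : K) : D.wS a b t * D.X a b u * (D.wS a b t)⁻¹ =
    D.X (piS a b a) (piS a b b) (cS a b t a * cS a b t b * u) := by
  rw [D.T10 hab ht hm, piS_a hab, piS_b hab, cS_a hab, cS_b hab, D.Xsym hab.ss]
  congr 1
  ring

lemma PS_a'b' (u : K) : D.wS a b t * D.X a.swap b.swap u * (D.wS a b t)⁻¹ =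
    D.X (piS a b a.swap) (piS a b b.swap) (cS a b t a.swap * cS a b t b.swap * u) := by
  rw [D.T11 hab ht hm, piS_a' hab, piS_b' hab, cS_a' hab, cS_b' hab, D.Xsym hab]
  congr 1
  ring

omit hm in
lemma PS_off {y : Ix m} (h : y ≠ a ∧ y ≠ b.swap ∧ y ≠ b ∧ y ≠ a.swap) (u : K) :
    (D.wS a b t * D.X a y u * (D.wS a b t)⁻¹ = D.X (piS a b a) (piS a b y) (cS a b t a * cS a b t y * u)) ∧
    (D.wS a b t * D.X b.swap y u * (D.wS a b t)⁻¹ = D.X (piS a b b.swap) (piS a b y) (cS a b t b.swap * cS a b t y * u)) ∧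
    (D.wS a b t * D.X b y u * (D.wS a b t)⁻¹ = D.X (piS a b b) (piS a b y) (cS a b t b * cS a b t y * u)) ∧
    (D.wS a b t * D.X a.swap y u * (D.wS a b t)⁻¹ = D.X (piS a b a.swap) (piS a b y) (cS a b t a.swap * cS a b t y * u)) := by
  obtain ⟨h1, h2, h3, h4⟩ := h
  have hh : y ≠ a ∧ y ≠ b.swap ∧ y ≠ b ∧ y ≠ a.swap := ⟨h1, h2, h3, h4⟩
  refine ⟨?_, ?_, ?_, ?_⟩
  · rw [D.T1 hab ht h1 h4 h3 h2, piS_a hab, piS_off hh, cS_a hab, cS_off t hh, mul_one]
  · rw [D.T2 hab ht h1 h4 h3 h2, piS_b' hab, piS_off hh, cS_b' hab, cS_off t hh, mul_one]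
  · rw [D.T3 hab ht h1 h4 h3 h2, piS_b hab, piS_off hh, cS_b hab, cS_off t hh, mul_one]
  · rw [D.T4 hab ht h1 h4 h3 h2, piS_a' hab, piS_off hh, cS_a' hab, cS_off t hh, mul_one]

lemma PS_X {x y : Ix m} (hxy : Sh x y) (u : K) : D.wS a b t * D.X x y u * (D.wS a b t)⁻¹ =
    D.X (piS a b x) (piS a b y) (cS a b t x * cS a b t y * u) := by
  have h0 := hxy.1
  have h0' := hxy.2
  rcases classS a b x with rfl | rfl | rfl | rfl | hx <;> rcases classS a b y with rfl | rfl | rfl | rfl | hy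
  · exact absurd rfl h0
  · exact D.PS_ab' hab ht u
  · exact D.PS_ab hab ht hm u
  · exact absurd rfl h0'
  · exact (D.PS_off hab ht hy u).1
  · exact D.PS_sym hab hxy.symm (D.PS_ab' hab ht)
  · exact absurd rfl h0
  · exact absurd (sw_sw _).symm h0'
  · exact D.PS_sym hab hxy.symm (D.PS_a'b' hab ht hm)
  · exact (D.PS_off hab ht hy u).2.1
  · exact D.PS_sym hab hxy.symm (D.PS_ab hab ht hm)
  · exact absurd rfl h0'
  · exact absurd rfl h0
  · exact D.PS_sym hab hxy.symm (D.PS_a'b hab ht)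
  · exact (D.PS_off hab ht hy u).2.2.1
  · exact absurd (sw_sw _).symm h0'
  · exact D.PS_a'b' hab ht hm u
  · exact D.PS_a'b hab ht u
  · exact absurd rfl h0
  · exact (D.PS_off hab ht hy u).2.2.2
  · exact D.PS_sym hab hxy.symm (fun u => (D.PS_off hab ht hx u).1)
  · exact D.PS_sym hab hxy.symm (fun u => (D.PS_off hab ht hx u).2.1)
  · exact D.PS_sym hab hxy.symm (fun u => (D.PS_off hab ht hx u).2.2.1)
  · exact D.PS_sym hab hxy.symm (fun u => (D.PS_off hab ht hx u).2.2.2)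
  · obtain ⟨h1, h2, h3, h4⟩ := hx
    obtain ⟨h5, h6, h7, h8⟩ := hy
    rw [D.T12 hab hxy h1 h4 h3 h2 h5 h8 h7 h6, piS_off ⟨h1, h2, h3, h4⟩, piS_off ⟨h5, h6, h7, h8⟩,
      cS_off t ⟨h1, h2, h3, h4⟩, cS_off t ⟨h5, h6, h7, h8⟩]
    simp

/-- The Weyl elements are monomial. -/
theorem acts_wS : D.Acts (D.wS a b t) (piS a b) (cS a b t) where
  sw := piS_sw hab
  inj := piS_inj hab
  rel := cS_rel hab ht
  X := D.PS_X hab ht hm

end ActsS

end Data

end Cfsg.Agent.Lib.DnN
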