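import Mathlib
import Cfsg.Agent.Lib.DnA
import Cfsg.Agent.Lib.StN2

/-!
# Steinberg relations of type `D_m`: rank one subgroups, the torus, subgroups generated by root elements
-/

set_option autoImplicit false
set_option linter.unusedVariables false
set_option linter.unusedSectionVars false

namespace Cfsg.Agent.Lib.DnN

open Cfsg.Agent.Lib.SpN (Ix Sh sw_sw sw_ne sw_inj sw_ne_sw ne_sw_symm Rk I6 I7 I8 I9 I10)
open Cfsg.Agent.Lib.St2
open Cfsg.Agent.Lib.StN (MW MD coe_MW coe_MD I1 I4 I5 decomp)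

namespace Data

variable {m : ℕ} {K Γ : Type*} [Field K] [Group Γ] (D : Data m K Γ)

/-- The torus element. -/
def hh (a b : Ix m) (c : K) : Γ := D.wS a b c * D.wS a b (-1)

section Rank

variable {a b : Ix m} (hab : Sh a b) (hm : 3 ≤ m)
include hab hm

lemma rkS : Rk (D.X a b) (fun t => D.X a.swap b.swap (-t)) where
  addx := D.addX hab
  addy s t := by
    rw [D.addX hab.ss, neg_add]
  conjx {t} ht u := by
    have e : D.X a b t * D.X a.swap b.swap (- -t⁻¹) * D.X a b t = D.wS a b t := by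
      rw [neg_neg, wS]
    rw [e, D.T10 hab ht hm]
    congr 1
    ring
  conjy {t} ht u := by
    have ht' : -t ≠ 0 := neg_ne_zero.2 ht
    have e : D.X a.swap b.swap (-t) * D.X a b (-t⁻¹) * D.X a.swap b.swap (-t) = D.wS a.swap b.swap (-t) := by
      rw [wS, sw_sw, sw_sw, inv_neg]
    rw [e, D.T10 hab.ss ht' hm, sw_sw, sw_sw]
    congr 1
    rw [inv_neg]
    ring

variable [Finite K]

lemma exists_psi : ∃ ψ : Matrix.SpecialLinearGroup (Fin 2) K →* Γ,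
    (∀ t, ψ (mx K (true, t)) = D.X a b t) ∧ (∀ t, ψ (mx K (false, t)) = D.X a.swap b.swap (-t)) ∧
    (∀ t, ψ (MW t) = D.wS a b t) ∧ (∀ t, ψ (MD t) = D.hh a b t) := by
  obtain ⟨ψ, h1, h2⟩ := (D.rkS hab hm).exists_psi
  have h3 : ∀ t, ψ (MW t) = D.wS a b t := by
    intro t
    rw [MW, map_mul, map_mul, h1, h2, neg_neg, wS]
  refine ⟨ψ, h1, h2, h3, ?_⟩
  intro t
  rw [MD, map_mul, h3, h3, hh]

lemma hh_mul {c d : K} (hc : c ≠ 0) (hd : d ≠ 0) : D.hh a b c * D.hh a b d = D.hh a b (c * d) := by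
  obtain ⟨ψ, -, -, -, h4⟩ := D.exists_psi hab hm
  rw [← h4, ← h4, ← h4, ← map_mul, I4 hc hd]

lemma hh_one : D.hh a b (1 : K) = 1 := by
  obtain ⟨ψ, -, -, -, h4⟩ := D.exists_psi hab hm
  rw [← h4, I5, map_one]

lemma hh_inv {c : K} (hc : c ≠ 0) : (D.hh a b c)⁻¹ = D.hh a b c⁻¹ := by
  rw [inv_eq_iff_mul_eq_one, D.hh_mul hab hm hc (inv_ne_zero hc), mul_inv_cancel₀ hc, D.hh_one hab hm]

lemma wS_mul {u v : K} (hu : u ≠ 0) (hv : v ≠ 0) : D.wS a b u * D.wS a b v = D.hh a b (-(u / v)) := by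
  obtain ⟨ψ, -, -, h3, h4⟩ := D.exists_psi hab hm
  rw [← h3, ← h3, ← h4, ← map_mul, I6 hu hv]

lemma hh_wS {c d : K} (hc : c ≠ 0) (hd : d ≠ 0) : D.hh a b c * D.wS a b d = D.wS a b (c * d) := by
  obtain ⟨ψ, -, -, h3, h4⟩ := D.exists_psi hab hm
  rw [← h3, ← h3, ← h4, ← map_mul, I9 hc hd]

lemma wS_hh {c d : K} (hc : c ≠ 0) (hd : d ≠ 0) : D.wS a b d * D.hh a b c = D.wS a b (d / c) := by
  obtain ⟨ψ, -, -, h3, h4⟩ := D.exists_psi hab hm
  rw [← h3, ← h3, ← h4, ← map_mul, I10 hc hd]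

lemma wS_sw {r : K} (hr : r ≠ 0) : D.wS a.swap b.swap r = D.wS a b r⁻¹ := by
  obtain ⟨ψ, h1, h2, h3, -⟩ := D.exists_psi hab hm
  rw [← h3, ← I8 hr, map_mul, map_mul, h1, h2, wS, sw_sw, sw_sw]
  congr 1
  · congr 1
    rw [neg_neg]
  · rw [neg_neg]

lemma hh_sw {c : K} (hc : c ≠ 0) : D.hh a.swap b.swap c = D.hh a b c⁻¹ := by
  have hn : (-1 : K) ≠ 0 := neg_ne_zero.2 one_ne_zero
  rw [hh, D.wS_sw hab hm hc, D.wS_sw hab hm hn, hh]
  congr 2
  simp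

lemma hh_symm {c : K} (hc : c ≠ 0) : D.hh a b c = D.hh b a c := by
  have hn : (-1 : K) ≠ 0 := neg_ne_zero.2 one_ne_zero
  rw [hh, D.wS_symm hab, D.wS_symm hab (-1), neg_neg, D.wS_mul hab.symm hm (neg_ne_zero.2 hc) one_ne_zero]
  congr 1
  simp

lemma wS_one_hh {c : K} (hc : c ≠ 0) : D.wS a b c = D.wS a b 1 * D.hh a b c⁻¹ := by
  rw [D.wS_hh hab hm (inv_ne_zero hc) one_ne_zero]
  congr 1
  simp

lemma wS_sq : D.wS a b (1 : K) * D.wS a b 1 = D.hh a b (-1) := by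
  rw [D.wS_mul hab hm one_ne_zero one_ne_zero]
  simp

end Rank

/-- Scalars of the torus elements. -/
def cH (a b : Ix m) (c : K) (x : Ix m) : K :=
  if x = a then c else if x = b then c else if x = a.swap then c⁻¹ else if x = b.swap then c⁻¹ else 1

section Torus

variable {a b : Ix m} (hab : Sh a b) (hm : 3 ≤ m)
include hab hm

lemma acts_hh {c : K} (hc : c ≠ 0) : D.Acts (D.hh a b c) (fun x => x) (cH a b c) := by
  have hn : (-1 : K) ≠ 0 := neg_ne_zero.2 one_ne_zero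
  have A := (D.acts_wS hab hc hm).mul (D.acts_wS hab hn hm)
  refine A.congr (piS_invol hab) ?_
  intro x
  have h1 := hab.1
  have h2 := hab.2
  have h3 : a ≠ a.swap := (sw_ne a).symm
  have h4 : b ≠ b.swap := (sw_ne b).symm
  have h5 : a ≠ b.swap := ne_sw_symm h2
  have h6 : a.swap ≠ b.swap := sw_ne_sw h1
  rcases classS a b x with rfl | rfl | rfl | rfl | h
  · rw [piS_a hab, cS_b' hab, cS_a hab]
    simp [cH]
  · rw [piS_b' hab, cS_a hab, cS_b' hab]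
    simp [cH, h5.symm, h4.symm, h6.symm]
  · rw [piS_b hab, cS_a' hab, cS_b hab]
    simp [cH, h1.symm]
  · rw [piS_a' hab, cS_b hab, cS_a' hab]
    simp [cH, h3.symm, h2.symm]
  · rw [piS_off h, cS_off _ h, cS_off _ h]
    obtain ⟨h7, h8, h9, h10⟩ := h
    simp [cH, h7, h8, h9, h10]

end Torus

namespace Acts

variable {D} {g : Γ} {π : Ix m → Ix m} {c : Ix m → K}

lemma hh (A : D.Acts g π c) {x y : Ix m} (h : Sh x y) (hm : 3 ≤ m) [Finite K] {s : K} (hs : s ≠ 0) :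
    g * D.hh x y s * g⁻¹ = D.hh (π x) (π y) s := by
  have hn : (-1 : K) ≠ 0 := neg_ne_zero.2 one_ne_zero
  have e : g * D.hh x y s * g⁻¹ = (g * D.wS x y s * g⁻¹) * (g * D.wS x y (-1) * g⁻¹) := by
    rw [Data.hh]
    group
  have hε := mul_ne_zero (A.c_ne x) (A.c_ne y)
  rw [e, A.wS h, A.wS h, D.wS_mul (A.sh h) hm (mul_ne_zero hε hs) (mul_ne_zero hε hn)]
  congr 1
  have hx := A.c_ne x
  have hy := A.c_ne y
  field_simp

/-- Inverse of a diagonal element. -/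
lemma inv_diag (A : D.Acts g (fun x => x) c) : D.Acts g⁻¹ (fun x => x) (fun x => (c x)⁻¹) where
  sw _ := rfl
  inj := fun _ _ h => h
  rel x := by
    rw [A.c_sw, inv_inv]
    exact inv_mul_cancel₀ (A.c_ne x)
  X {x y} h u := by
    have h1 := A.X h ((c x)⁻¹ * (c y)⁻¹ * u)
    have e : c x * c y * ((c x)⁻¹ * (c y)⁻¹ * u) = u := by
      have hx := A.c_ne x
      have hy := A.c_ne y
      field_simp
    rw [e] at h1
    rw [← h1]
    group

end Acts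

/-- The subgroup generated by some root elements. -/
def rt (P : Ix m → Ix m → Prop) : Subgroup Γ :=
  Subgroup.closure {g | ∃ a b t, Sh a b ∧ P a b ∧ g = D.X a b t}

variable {P P' : Ix m → Ix m → Prop} {a b : Ix m}

lemma rtX (hab : Sh a b) (h : P a b) (t : K) : D.X a b t ∈ D.rt P :=
  Subgroup.subset_closure ⟨a, b, t, hab, h, rfl⟩

lemma rtX' (hab : Sh a b) (h : P b a) (t : K) : D.X a b t ∈ D.rt P := by
  rw [D.Xsym hab]
  exact D.rtX hab.symm h _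

lemma rt_le {B : Subgroup Γ} (h1 : ∀ a b t, Sh a b → P a b → D.X a b t ∈ B) : D.rt P ≤ B := by
  rw [rt, Subgroup.closure_le]
  rintro _ ⟨a, b, t, hab, h, rfl⟩
  exact h1 a b t hab h

lemma rt_mono (h1 : ∀ a b, Sh a b → P a b → P' a b) : D.rt P ≤ D.rt P' :=
  D.rt_le (fun a b t hab h => D.rtX hab (h1 a b hab h) t)

theorem rt_ind {R : Γ → Prop} (h1 : R 1) (hx : ∀ a b t y, Sh a b → P a b → R y → R (D.X a b t * y))
    {g : Γ} (hg : g ∈ D.rt P) : R g := by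
  induction hg using Subgroup.closure_induction_left with
  | one => exact h1
  | mul_left x hx' y hy ih =>
    obtain ⟨a, b, t, hab, h, rfl⟩ := hx'
    exact hx a b t y hab h ih
  | inv_mul_cancel x hx' y hy ih =>
    obtain ⟨a, b, t, hab, h, rfl⟩ := hx'
    rw [D.X_inv hab]
    exact hx a b (-t) y hab h ih

lemma rt_conj {B : Subgroup Γ} (g : Γ) (h1 : ∀ a b t, Sh a b → P a b → g * D.X a b t * g⁻¹ ∈ B)
    {τ : Γ} (hτ : τ ∈ D.rt P) : g * τ * g⁻¹ ∈ B := by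
  have key : D.rt P ≤ B.comap (MulAut.conj g).toMonoidHom :=
    D.rt_le (fun a b t hab h => by simpa [Subgroup.mem_comap, MulAut.conj_apply] using h1 a b t hab h)
  simpa [Subgroup.mem_comap, MulAut.conj_apply] using key hτ

lemma rt_normal {T : Subgroup Γ}
    (h1 : ∀ a b t, Sh a b → P a b → ∀ τ ∈ T, D.X a b t * τ * (D.X a b t)⁻¹ ∈ T) {l : Γ} (hl : l ∈ D.rt P) :
    ∀ τ ∈ T, l * τ * l⁻¹ ∈ T := by
  refine D.rt_ind (R := fun l => ∀ τ ∈ T, l * τ * l⁻¹ ∈ T) ?_ ?_ hl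
  · intro τ hτ
    simpa using hτ
  · intro a b t y hab hP ih τ hτ
    have := h1 a b t hab hP _ (ih τ hτ)
    convert this using 1
    group

namespace Acts

variable {D} {g : Γ} {π : Ix m → Ix m} {c : Ix m → K}

lemma conj_rt (A : D.Acts g π c) (h1 : ∀ x y, Sh x y → P x y → P' (π x) (π y) ∨ P' (π y) (π x))
    {τ : Γ} (hτ : τ ∈ D.rt P) : g * τ * g⁻¹ ∈ D.rt P' := by
  refine D.rt_conj g ?_ hτ
  intro x y t hxy hP
  rw [A.X hxy]
  rcases h1 x y hxy hP with h | h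
  · exact D.rtX (A.sh hxy) h _
  · exact D.rtX' (A.sh hxy) h _

lemma conj_rt_diag (A : D.Acts g (fun x => x) c) {τ : Γ} (hτ : τ ∈ D.rt P) : g * τ * g⁻¹ ∈ D.rt P :=
  A.conj_rt (fun _ _ _ h => Or.inl h) hτ

end Acts

/-- The Levi subgroup. -/
def LV (J : Finset (Ix m)) : Subgroup Γ := D.rt (fun x y => x ∈ J ∧ y ∈ J)

/-- The root group of a point. -/
def QQ (J : Finset (Ix m)) (n : Ix m) : Subgroup Γ := D.rt (fun x y => x = n ∧ y ∈ J)

/-- A part of `QQ`. -/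
def TP (J : Finset (Ix m)) (n j : Ix m) : Subgroup Γ := D.rt (fun x y => x = n ∧ y ∈ J ∧ y ≠ j)

/-- The index set of the torus. -/
def TS (J : Finset (Ix m)) (n x : Ix m) : Prop := x ∈ J ∨ x = n ∨ x = n.swap

/-- The torus attached to a set. -/
def TOR (S : Ix m → Prop) : Subgroup Γ :=
  Subgroup.closure {g | ∃ x y c, Sh x y ∧ S x ∧ S y ∧ c ≠ 0 ∧ g = D.hh x y c}

/-- The stabilizer of a point. -/
def ZZ (J : Finset (Ix m)) (n : Ix m) : Subgroup Γ :=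
  Subgroup.closure ({g | ∃ x y t, Sh x y ∧ ((x ∈ J ∧ y ∈ J) ∨ (x = n ∧ y ∈ J)) ∧ g = D.X x y t} ∪
    {g | ∃ x y c, Sh x y ∧ TS J n x ∧ TS J n y ∧ c ≠ 0 ∧ g = D.hh x y c})

variable {J : Finset (Ix m)} {n : Ix m} {S S' : Ix m → Prop}

lemma hh_mem_TOR {x y : Ix m} (hxy : Sh x y) (hx : S x) (hy : S y) {c : K} (hc : c ≠ 0) :
    D.hh x y c ∈ D.TOR S :=
  Subgroup.subset_closure ⟨x, y, c, hxy, hx, hy, hc, rfl⟩

lemma LV_le_ZZ : D.LV J ≤ D.ZZ J n :=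
  D.rt_le fun a b t hab h => Subgroup.subset_closure (Or.inl ⟨a, b, t, hab, Or.inl h, rfl⟩)

lemma QQ_le_ZZ : D.QQ J n ≤ D.ZZ J n :=
  D.rt_le fun a b t hab h => Subgroup.subset_closure (Or.inl ⟨a, b, t, hab, Or.inr h, rfl⟩)

lemma TOR_le_ZZ : D.TOR (TS J n) ≤ D.ZZ J n := by
  rw [TOR, Subgroup.closure_le]
  rintro _ ⟨x, y, c, hxy, hx, hy, hc, rfl⟩
  exact Subgroup.subset_closure (Or.inr ⟨x, y, c, hxy, hx, hy, hc, rfl⟩)

lemma TP_le_QQ {j : Ix m} : D.TP J n j ≤ D.QQ J n :=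
  D.rt_mono (fun _ _ _ h => ⟨h.1, h.2.1⟩)

variable (hm : 3 ≤ m) [Finite K]
include hm

lemma TOR_diag {δ : Γ} (hδ : δ ∈ D.TOR S) : ∃ c, D.Acts δ (fun x => x) c := by
  induction hδ using Subgroup.closure_induction with
  | mem x hx =>
    obtain ⟨x, y, c, hxy, -, -, hc, rfl⟩ := hx
    exact ⟨_, D.acts_hh hxy hm hc⟩
  | one => exact ⟨_, Acts.one⟩
  | mul x y _ _ hx hy =>
    obtain ⟨c, hc⟩ := hx
    obtain ⟨c', hc'⟩ := hy
    exact ⟨_, hc.mul hc'⟩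
  | inv x _ hx =>
    obtain ⟨c, hc⟩ := hx
    exact ⟨_, hc.inv_diag⟩

lemma TOR_conj_rt {δ τ : Γ} (hδ : δ ∈ D.TOR S) (hτ : τ ∈ D.rt P) : δ * τ * δ⁻¹ ∈ D.rt P := by
  obtain ⟨c, A⟩ := D.TOR_diag hm hδ
  exact A.conj_rt_diag hτ

namespace Acts

variable {D} {g : Γ} {π : Ix m → Ix m} {c : Ix m → K}

lemma conj_TOR (A : D.Acts g π c) (h : ∀ x, S x → S' (π x)) {δ : Γ} (hδ : δ ∈ D.TOR S) :
    g * δ * g⁻¹ ∈ D.TOR S' := by
  have key : D.TOR S ≤ (D.TOR S').comap (MulAut.conj g).toMonoidHom := by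
    rw [TOR, Subgroup.closure_le]
    rintro _ ⟨x, y, e, hxy, hx, hy, he, rfl⟩
    simp only [Subgroup.coe_comap, Set.mem_preimage, SetLike.mem_coe, MulEquiv.coe_toMonoidHom, MulAut.conj_apply]
    rw [A.hh hxy hm he]
    exact D.hh_mem_TOR (A.sh hxy) (h x hx) (h y hy) he
  simpa [Subgroup.mem_comap, MulAut.conj_apply] using key hδ

end Acts

omit hm [Finite K] in
/-- Commutation inside `QQ`. -/
lemma X_comm_same {n x y : Ix m} (hx : Sh n x) (hy : Sh n y) (s t : K) :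
    D.X n x s * D.X n y t = D.X n y t * D.X n x s := by
  by_cases h : y = x.swap
  · subst h
    have := D.relC' hx s (-t)
    rw [D.Xsym hy.symm, neg_neg] at this
    exact this
  · exact D.commXX hx hy (sw_ne n).symm hx.symm.ne' hy.2 h s t

omit hm [Finite K] in
lemma QQ_comm {τ τ' : Γ} (hτ : τ ∈ D.QQ J n) (hτ' : τ' ∈ D.QQ J n) : τ * τ' = τ' * τ := by
  have key : D.QQ J n ≤ Subgroup.centralizer (D.QQ J n : Set Γ) := by
    rw [QQ, rt, Subgroup.closure_le]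
    rintro _ ⟨a, b, t, hab, ⟨rfl, hb⟩, rfl⟩
    rw [SetLike.mem_coe, Subgroup.mem_centralizer_iff]
    intro h hh'
    refine D.rt_ind (P := fun x y => x = a ∧ y ∈ J) (R := fun h => h * D.X a b t = D.X a b t * h) (by simp) ?_ hh'
    rintro x y u g hxy ⟨rfl, hy⟩ ih
    rw [mul_assoc, ih, ← mul_assoc, ← mul_assoc, D.X_comm_same hxy hab]
  exact (Subgroup.mem_centralizer_iff.1 (key hτ') τ hτ).symm ▸ rfl

end Data

end Cfsg.Agent.Lib.DnN
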