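import Mathlib
import Cfsg.Agent.Lib.DnB

/-!
# Steinberg relations of type `D_m`: conjugation facts for the inductive step
-/

set_option autoImplicit false
set_option linter.unusedVariables false
set_option linter.unusedSectionVars false

namespace Cfsg.Agent.Lib.DnN

open Cfsg.Agent.Lib.SpN (Ix Sh sw_sw sw_ne sw_inj sw_ne_sw ne_sw_symm I7)
open Cfsg.Agent.Lib.St2
open Cfsg.Agent.Lib.StN (MW MD I1)

namespace Data

variable {m : ℕ} {K Γ : Type*} [Field K] [Group Γ] (D : Data m K Γ)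

section Normal

variable {J : Finset (Ix m)} {n : Ix m} (hJ : ∀ x ∈ J, x.swap ∈ J) (hn : n ∉ J)
include hJ hn

omit hJ in
lemma ne_of_mem {x : Ix m} (hx : x ∈ J) : x ≠ n := fun h => hn (h ▸ hx)

lemma ne_sw_of_mem {x : Ix m} (hx : x ∈ J) : x ≠ n.swap := by
  rintro rfl
  have := hJ _ hx
  rw [sw_sw] at this
  exact hn this

lemma sh_of_mem {x : Ix m} (hx : x ∈ J) : Sh n x :=
  ⟨(ne_of_mem hn hx).symm, ne_sw_of_mem hJ hn hx⟩

lemma mem_X {b : Ix m} (hb : b ∈ J) (t : K) : D.X n b t ∈ D.QQ J n :=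
  D.rtX (sh_of_mem hJ hn hb) ⟨rfl, hb⟩ t

lemma mem_X' {b : Ix m} (hb : b ∈ J) (t : K) : D.X b n t ∈ D.QQ J n :=
  D.rtX' (sh_of_mem hJ hn hb).symm ⟨rfl, hb⟩ t

/-- Root elements of `LV` normalize the root group of a point. -/
lemma LV_conj_QQ {l τ : Γ} (hl : l ∈ D.LV J) (hτ : τ ∈ D.QQ J n) : l * τ * l⁻¹ ∈ D.QQ J n := by
  have fne : ∀ {x}, x ∈ J → n ≠ x := fun hx => (ne_of_mem hn hx).symm
  have fsw : ∀ {x}, x ∈ J → n ≠ x.swap := fun hx => fne (hJ _ hx)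
  refine D.rt_normal ?_ hl τ hτ
  rintro x y t hxy ⟨hx, hy⟩ τ hτ
  refine D.rt_conj _ ?_ hτ
  rintro c b u hcb ⟨rfl, hb⟩
  by_cases h1 : b = x.swap
  · subst h1
    have h2 := D.relC hxy.symm (d := c) (fne hy) (fsw hy) (fne hx) (fsw hx) (-t) (-u)
    rw [D.Xsym hxy, D.Xsym hcb, h2]
    exact Subgroup.mul_mem _ (D.mem_X' hJ hn hb _) (D.mem_X' hJ hn hy _)
  · by_cases h3 : b = y.swap
    · subst h3
      have h2 := D.relC hxy (d := c) (fne hx) (fsw hx) (fne hy) (fsw hy) t (-u)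
      rw [D.Xsym hcb, h2]
      exact Subgroup.mul_mem _ (D.mem_X' hJ hn hb _) (D.mem_X' hJ hn hx _)
    · rw [D.commXX hxy hcb (fsw hx) (fsw hy) h1 h3]
      rw [mul_inv_cancel_right]
      exact D.mem_X hJ hn hb _

/-- Splitting off a direction of the root group of a point. -/
lemma TP_split {j : Ix m} (hj : j ∈ J) {τ : Γ} (hτ : τ ∈ D.QQ J n) :
    ∃ τ₀ ∈ D.TP J n j, ∃ z : K, τ = τ₀ * D.X n j z := by
  have hs := sh_of_mem hJ hn hj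
  refine D.rt_ind (R := fun τ => ∃ τ₀ ∈ D.TP J n j, ∃ z : K, τ = τ₀ * D.X n j z) ?_ ?_ hτ
  · exact ⟨1, Subgroup.one_mem _, 0, by simp [D.X_zero hs]⟩
  · rintro x y t g hxy ⟨rfl, hy⟩ ⟨τ₀, hτ₀, z, rfl⟩
    by_cases hyj : y = j
    · subst hyj
      refine ⟨τ₀, hτ₀, t + z, ?_⟩
      rw [← D.addX hs, ← mul_assoc, ← mul_assoc,
        D.QQ_comm (D.mem_X hJ hn hy t) (D.TP_le_QQ hτ₀)]
    · exact ⟨D.X x y t * τ₀, Subgroup.mul_mem _ (D.rtX hxy ⟨rfl, hy, hyj⟩ t) hτ₀, z, by group⟩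

/-- Bound for the size of the root group of a point. -/
lemma exists_cover_QQ_aux [Finite K] (S : Finset (Ix m)) (hS : S ⊆ J) :
    ∃ F : Finset Γ, F.card ≤ Nat.card K ^ S.card ∧ ∀ g ∈ D.QQ S n, g ∈ F := by
  classical
  haveI := Fintype.ofFinite K
  induction S using Finset.induction_on with
  | empty =>
    refine ⟨{1}, by simp, ?_⟩
    intro g hg
    have : g = 1 := by
      refine D.rt_ind (R := fun g => g = 1) rfl ?_ hg
      rintro x y t g hxy ⟨_, hy⟩ _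
      simp at hy
    simp [this]
  | insert b S hb ih =>
    have hS' : S ⊆ J := fun x hx => hS (Finset.mem_insert_of_mem hx)
    have hbJ : b ∈ J := hS (Finset.mem_insert_self _ _)
    obtain ⟨F, hF, hg⟩ := ih hS'
    have hsb : Sh n b := sh_of_mem hJ hn hbJ
    have key : ∀ g ∈ D.QQ (insert b S) n, ∃ t, ∃ g' ∈ D.QQ S n, g = D.X n b t * g' := by
      intro g hg
      refine D.rt_ind (R := fun g => ∃ t, ∃ g' ∈ D.QQ S n, g = D.X n b t * g') ?_ ?_ hg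
      · exact ⟨0, 1, Subgroup.one_mem _, by simp [D.X_zero hsb]⟩
      · rintro x y u g hxy ⟨rfl, hy⟩ ⟨t, g', hg', rfl⟩
        rcases Finset.mem_insert.1 hy with rfl | hyS
        · exact ⟨u + t, g', hg', by rw [← mul_assoc, D.addX hxy]⟩
        · have hmem : D.X x y u ∈ D.QQ S x := D.rtX hxy ⟨rfl, hyS⟩ u
          refine ⟨t, D.X x y u * g', Subgroup.mul_mem _ hmem hg', ?_⟩
          rw [← mul_assoc, ← mul_assoc, D.X_comm_same hxy hsb]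
    refine ⟨((Finset.univ : Finset K) ×ˢ F).image fun p => D.X n b p.1 * p.2, ?_, ?_⟩
    · refine Finset.card_image_le.trans ?_
      rw [Finset.card_product, Finset.card_univ, ← Nat.card_eq_fintype_card,
        Finset.card_insert_of_notMem hb, pow_succ' _ S.card]
      exact Nat.mul_le_mul_left _ hF
    · intro g hg'
      obtain ⟨t, g₁, hg₁, rfl⟩ := key g hg'
      simp only [Finset.mem_image, Finset.mem_product, Finset.mem_univ, true_and]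
      exact ⟨(t, g₁), hg _ hg₁, rfl⟩

lemma exists_cover_QQ [Finite K] : ∃ F : Finset Γ, F.card ≤ Nat.card K ^ J.card ∧ ∀ g ∈ D.QQ J n, g ∈ F :=
  D.exists_cover_QQ_aux hJ hn J (Finset.Subset.refl _)

end Normal

section Mem

variable {J : Finset (Ix m)} (hJ : ∀ x ∈ J, x.swap ∈ J)
include hJ

lemma wS_mem_LV {x y : Ix m} (hx : x ∈ J) (hy : y ∈ J) (hxy : Sh x y) (t : K) : D.wS x y t ∈ D.LV J :=
  Subgroup.mul_mem _ (Subgroup.mul_mem _ (D.rtX hxy ⟨hx, hy⟩ t) (D.rtX hxy.ss ⟨hJ _ hx, hJ _ hy⟩ _))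
    (D.rtX hxy ⟨hx, hy⟩ t)

lemma hh_mem_LV {x y : Ix m} (hx : x ∈ J) (hy : y ∈ J) (hxy : Sh x y) (t : K) : D.hh x y t ∈ D.LV J :=
  Subgroup.mul_mem _ (D.wS_mem_LV hJ hx hy hxy _) (D.wS_mem_LV hJ hx hy hxy _)

end Mem

/-- A group element fixing the root elements of `L` commutes with it. -/
lemma comm_LV {J : Finset (Ix m)} {g : Γ} {π : Ix m → Ix m} {c : Ix m → K} (A : D.Acts g π c)
    (h1 : ∀ x ∈ J, π x = x) (h2 : ∀ x ∈ J, c x = 1) {l : Γ} (hl : l ∈ D.LV J) : g * l = l * g := by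
  refine D.rt_ind (R := fun l => g * l = l * g) (by simp) ?_ hl
  rintro x y t l hxy ⟨hx, hy⟩ ih
  have := A.X hxy t
  rw [h1 x hx, h1 y hy, h2 x hx, h2 y hy, one_mul, one_mul, mul_inv_eq_iff_eq_mul] at this
  rw [← mul_assoc, this, mul_assoc, ih, mul_assoc]

/-- The double Weyl element. -/
def WW (a b : Ix m) (t : K) : Γ := D.wS a b t * D.wS a b.swap t

section Dbl

variable {a b : Ix m} (hab : Sh a b) (hm : 3 ≤ m)
include hab

omit hm in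
lemma wS_comm_orth {s t : K} (hs : s ≠ 0) : D.wS a b s * D.wS a b.swap t = D.wS a b.swap t * D.wS a b s := by
  have e1 : Commute (D.wS a b s) (D.X a b.swap t) := by
    have := D.T5 hab hs t
    rw [mul_inv_eq_iff_eq_mul] at this
    exact this
  have e2 : Commute (D.wS a b s) (D.X a.swap b t⁻¹) := by
    have := D.T5' hab hs t⁻¹
    rw [mul_inv_eq_iff_eq_mul] at this
    exact this
  have e3 : D.wS a b.swap t = D.X a b.swap t * D.X a.swap b t⁻¹ * D.X a b.swap t := by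
    rw [wS, sw_sw]
  rw [e3]
  exact ((e1.mul_right e2).mul_right e1).eq

omit hm in
lemma WW_inv {t : K} (ht : t ≠ 0) : (D.WW a b t)⁻¹ = D.WW a b (-t) := by
  rw [WW, WW, mul_inv_rev, D.wS_inv hab, D.wS_inv hab.sr, D.wS_comm_orth hab (neg_ne_zero.2 ht)]

lemma piW_a : piS a b (piS a b.swap a) = a.swap := by
  rw [piS_a hab.sr, sw_sw, piS_b hab]

lemma piW_a' : piS a b (piS a b.swap a.swap) = a := by
  rw [piS_a' hab.sr, piS_b' hab]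

lemma piW_b : piS a b (piS a b.swap b) = b.swap := by
  have : piS a b.swap b = a := by simpa [sw_sw] using piS_b' hab.sr
  rw [this, piS_a hab]

lemma piW_b' : piS a b (piS a b.swap b.swap) = b := by
  rw [piS_b hab.sr, piS_a' hab]

omit hab in
lemma piW_off {x : Ix m} (h : x ≠ a ∧ x ≠ b.swap ∧ x ≠ b ∧ x ≠ a.swap) : piS a b (piS a b.swap x) = x := by
  obtain ⟨h1, h2, h3, h4⟩ := h
  rw [piS_off ⟨h1, by rwa [sw_sw], h2, h4⟩, piS_off ⟨h1, h2, h3, h4⟩]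

include hm

lemma acts_WW {t : K} (ht : t ≠ 0) : ∃ c, D.Acts (D.WW a b t) (fun x => piS a b (piS a b.swap x)) c :=
  ⟨_, (D.acts_wS hab ht hm).mul (D.acts_wS hab.sr ht hm)⟩

end Dbl

/-- The configuration of the inductive step. -/
structure Ctx (J : Finset (Ix m)) (a j b : Ix m) : Prop where
  hJ : ∀ x ∈ J, x.swap ∈ J
  ha : a ∉ J
  hj : j ∈ J
  hb : b ∈ J
  hbj : b ≠ j
  hbj' : b ≠ j.swap
  hm : 3 ≤ m

namespace Ctx

variable {J : Finset (Ix m)} {a j b : Ix m} (C : Ctx J a j b)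
include C

lemma ha' : a.swap ∉ J := fun h => C.ha (by simpa [sw_sw] using C.hJ _ h)
lemma hj' : j.swap ∈ J := C.hJ _ C.hj
lemma hb' : b.swap ∈ J := C.hJ _ C.hb

lemma ne1 {x : Ix m} (hx : x ∈ J) : x ≠ a := fun h => C.ha (h ▸ hx)
lemma ne2 {x : Ix m} (hx : x ∈ J) : x ≠ a.swap := fun h => C.ha' (h ▸ hx)

lemma sh1 {x : Ix m} (hx : x ∈ J) : Sh a x := ⟨(C.ne1 hx).symm, C.ne2 hx⟩
lemma sh2 {x : Ix m} (hx : x ∈ J) : Sh a.swap x := ⟨(C.ne2 hx).symm, by rw [sw_sw]; exact C.ne1 hx⟩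
lemma sh : Sh a j := C.sh1 C.hj
lemma sh' : Sh a j.swap := C.sh1 C.hj'
lemma shb : Sh a b := C.sh1 C.hb
lemma shjb : Sh j b := ⟨C.hbj.symm, C.hbj'⟩

omit C in
lemma hn1 : (-1 : K) ≠ 0 := neg_ne_zero.2 one_ne_zero

end Ctx

/-- The smaller index set. -/
def Jp (J : Finset (Ix m)) (j : Ix m) : Finset (Ix m) := (J.erase j).erase j.swap

lemma mem_Jp {J : Finset (Ix m)} {j x : Ix m} : x ∈ Jp J j ↔ x ∈ J ∧ x ≠ j ∧ x ≠ j.swap := by
  simp only [Jp, Finset.mem_erase]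
  tauto

section Conj

variable {D} {J : Finset (Ix m)} {a j b : Ix m} (C : Ctx J a j b)
include C

lemma Jp_swap {x : Ix m} (hx : x ∈ Jp J j) : x.swap ∈ Jp J j := by
  obtain ⟨h1, h2, h3⟩ := mem_Jp.1 hx
  refine mem_Jp.2 ⟨C.hJ _ h1, ?_, sw_ne_sw h2⟩
  rintro rfl
  exact h3 (sw_sw x).symm

lemma off_mem {x : Ix m} (hx : x ∈ J) (h1 : x ≠ j) (h2 : x ≠ j.swap) : x ≠ a ∧ x ≠ j.swap ∧ x ≠ j ∧ x ≠ a.swap :=
  ⟨C.ne1 hx, h2, h1, C.ne2 hx⟩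

lemma Jp_off {x : Ix m} (hx : x ∈ Jp J j) : x ≠ a ∧ x ≠ j.swap ∧ x ≠ j ∧ x ≠ a.swap := by
  obtain ⟨h1, h2, h3⟩ := mem_Jp.1 hx
  exact ⟨C.ne1 h1, h3, h2, C.ne2 h1⟩

lemma b_off : b ≠ a ∧ b ≠ j.swap ∧ b ≠ j ∧ b ≠ a.swap := off_mem C C.hb C.hbj C.hbj'

lemma b'_off : b.swap ≠ a ∧ b.swap ≠ j.swap ∧ b.swap ≠ j ∧ b.swap ≠ a.swap := off_sw (b_off C)

lemma j_offb : j ≠ a ∧ j ≠ b.swap ∧ j ≠ b ∧ j ≠ a.swap :=
  ⟨C.ne1 C.hj, fun e => C.hbj' (by rw [e, sw_sw]) , C.hbj.symm, C.ne2 C.hj⟩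

lemma j'_offb : j.swap ≠ a ∧ j.swap ≠ b.swap ∧ j.swap ≠ b ∧ j.swap ≠ a.swap := off_sw (j_offb C)

lemma s_acts : D.Acts (D.wS a j (1 : K)) (piS a j) (cS a j 1) := D.acts_wS C.sh one_ne_zero C.hm

lemma si_acts : D.Acts (D.wS a j (-1 : K)) (piS a j) (cS a j (-1)) := D.acts_wS C.sh Ctx.hn1 C.hm

lemma s_inv : (D.wS a j (1 : K))⁻¹ = D.wS a j (-1) := D.wS_inv C.sh 1

variable [Finite K]

/-- `π_s` on the torus index set. -/
lemma pi_TS {x : Ix m} (hx : TS J a.swap x) : TS J a.swap (piS a j x) := by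
  have hs := C.sh
  by_cases h1 : x = a
  · subst h1
    rw [piS_a hs]
    exact Or.inl C.hj'
  by_cases h2 : x = a.swap
  · subst h2
    rw [piS_a' hs]
    exact Or.inl C.hj
  by_cases h3 : x = j
  · subst h3
    rw [piS_b hs]
    exact Or.inr (Or.inl rfl)
  by_cases h4 : x = j.swap
  · subst h4
    rw [piS_b' hs]
    exact Or.inr (Or.inr (by rw [sw_sw]))
  rw [piS_off ⟨h1, h4, h3, h2⟩]
  exact hx

lemma s_TOR {δ : Γ} (hδ : δ ∈ D.TOR (TS J a.swap)) :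
    D.wS a j (1 : K) * δ * (D.wS a j (1 : K))⁻¹ ∈ D.TOR (TS J a.swap) :=
  (D.s_acts C).conj_TOR C.hm (fun _ h => pi_TS C h) hδ

lemma si_TOR {δ : Γ} (hδ : δ ∈ D.TOR (TS J a.swap)) :
    (D.wS a j (1 : K))⁻¹ * δ * D.wS a j (1 : K) ∈ D.TOR (TS J a.swap) := by
  have h := (D.si_acts C).conj_TOR C.hm (fun _ h => pi_TS C h) hδ
  rwa [← D.s_inv C, inv_inv] at h

/-- `T` absorbed by `s`. -/
lemma s_TP {τ : Γ} (hτ : τ ∈ D.TP J a j.swap) : (D.wS a j (1 : K))⁻¹ * τ * D.wS a j 1 ∈ D.ZZ J a.swap := by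
  have A := D.si_acts C
  have e : (D.wS a j (1 : K))⁻¹ * τ * D.wS a j 1 = D.wS a j (-1) * τ * (D.wS a j (-1 : K))⁻¹ := by
    rw [← D.s_inv C, inv_inv]
  rw [e]
  refine D.rt_conj _ ?_ hτ
  rintro x y t hxy ⟨rfl, hy, hyj⟩
  rw [A.X hxy, piS_a C.sh]
  by_cases h : y = j
  · subst y
    rw [piS_b C.sh]
    refine D.QQ_le_ZZ (D.rtX' (A.sh hxy |> fun h => ?_) ⟨rfl, C.hj'⟩ _)
    rw [piS_a C.sh, piS_b C.sh] at h
    exact h
  · rw [piS_off ⟨C.ne1 hy, hyj, h, C.ne2 hy⟩]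
    refine D.LV_le_ZZ (D.rtX (A.sh hxy |> fun h' => ?_) ⟨C.hj', hy⟩ _)
    rwa [piS_a C.sh, piS_off ⟨C.ne1 hy, hyj, h, C.ne2 hy⟩] at h'

/-- The stabilizer of the point `a` in the smaller group. -/
def HI (D : Data m K Γ) (J : Finset (Ix m)) (n : Ix m) : Subgroup Γ :=
  D.rt (fun x y => (x ∈ J ∧ y ∈ J) ∨ (x = n ∧ y ∈ J))

/-- The conjugate of the part of `T` off `j`. -/
lemma s_TP' {τ : Γ} (hτ : τ ∈ D.TP J a j) : D.wS a j (1 : K) * τ * (D.wS a j (1 : K))⁻¹ ∈ HI D J a := by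
  have A := D.s_acts C
  refine A.conj_rt ?_ hτ
  rintro x y hxy ⟨hx, hy, hyj⟩
  subst x
  rw [piS_a C.sh]
  by_cases h : y = j.swap
  · subst y
    rw [piS_b' C.sh]
    exact Or.inr (Or.inr ⟨rfl, C.hj'⟩)
  · rw [piS_off ⟨(C.ne1 hy), h, hyj, C.ne2 hy⟩]
    exact Or.inl (Or.inl ⟨C.hj', hy⟩)

/-- `π_W` on `J`. -/
lemma piW_J {x : Ix m} (hx : x ∈ J) : piS a b (piS a b.swap x) ∈ J := by
  have hs := C.shb
  by_cases h3 : x = b
  · subst h3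
    rw [piW_b hs]
    exact C.hb'
  by_cases h4 : x = b.swap
  · subst h4
    rw [piW_b' hs]
    exact C.hb
  rw [piW_off ⟨C.ne1 hx, h4, h3, C.ne2 hx⟩]
  exact hx

lemma piW_TS {x : Ix m} (hx : TS J a.swap x) : TS J a.swap (piS a b (piS a b.swap x)) := by
  have hs := C.shb
  rcases hx with hx | rfl | rfl
  · exact Or.inl (piW_J C hx)
  · rw [piW_a' hs]
    exact Or.inr (Or.inr (by rw [sw_sw]))
  · rw [sw_sw, piW_a hs]
    exact Or.inr (Or.inl rfl)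

lemma W_inv : (D.WW a b (1 : K))⁻¹ = D.WW a b (-1) := D.WW_inv C.shb one_ne_zero

lemma W_LV {l : Γ} (hl : l ∈ D.LV J) : (D.WW a b (1 : K))⁻¹ * l * D.WW a b 1 ∈ D.LV J := by
  obtain ⟨c, A⟩ := D.acts_WW C.shb C.hm (Ctx.hn1 (K := K))
  have h : (D.WW a b (1 : K))⁻¹ * l * D.WW a b 1 = D.WW a b (-1) * l * (D.WW a b (-1 : K))⁻¹ := by
    rw [← D.W_inv C, inv_inv]
  rw [h]
  exact A.conj_rt (fun x y _ hP => Or.inl ⟨piW_J C hP.1, piW_J C hP.2⟩) hl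

lemma W_QQ {τ : Γ} (hτ : τ ∈ D.QQ J a) : (D.WW a b (1 : K))⁻¹ * τ * D.WW a b 1 ∈ D.QQ J a.swap := by
  obtain ⟨c, A⟩ := D.acts_WW C.shb C.hm (Ctx.hn1 (K := K))
  have h : (D.WW a b (1 : K))⁻¹ * τ * D.WW a b 1 = D.WW a b (-1) * τ * (D.WW a b (-1 : K))⁻¹ := by
    rw [← D.W_inv C, inv_inv]
  rw [h]
  refine A.conj_rt ?_ hτ
  rintro x y _ ⟨rfl, hy⟩
  exact Or.inl ⟨piW_a C.shb, piW_J C hy⟩

lemma W_TOR {δ : Γ} (hδ : δ ∈ D.TOR (TS J a.swap)) :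
    (D.WW a b (1 : K))⁻¹ * δ * D.WW a b 1 ∈ D.TOR (TS J a.swap) := by
  obtain ⟨c, A⟩ := D.acts_WW C.shb C.hm (Ctx.hn1 (K := K))
  have h : (D.WW a b (1 : K))⁻¹ * δ * D.WW a b 1 = D.WW a b (-1) * δ * (D.WW a b (-1 : K))⁻¹ := by
    rw [← D.W_inv C, inv_inv]
  rw [h]
  exact A.conj_TOR C.hm (fun _ h => piW_TS C h) hδ

/-- First kind of cosets. -/
def Y1 (D : Data m K Γ) (J : Finset (Ix m)) (a n : Ix m) (g : Γ) : Prop :=
  ∃ τ ∈ D.QQ J a, ∃ z ∈ D.ZZ J n, g = τ * z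

/-- Last kind of cosets. -/
def Y3 (D : Data m K Γ) (J : Finset (Ix m)) (a n b : Ix m) (g : Γ) : Prop :=
  ∃ z ∈ D.ZZ J n, g = D.WW a b 1 * z

/-- Middle kind of cosets. -/
def Y2 (D : Data m K Γ) (J : Finset (Ix m)) (a n j : Ix m) (g : Γ) : Prop :=
  ∃ l ∈ D.LV J, ∃ f : K, ∃ z ∈ D.ZZ J n, g = l * D.X a j.swap f * D.wS a j 1 * z

/-- All the cosets. -/
def YY (D : Data m K Γ) (J : Finset (Ix m)) (a j b : Ix m) (g : Γ) : Prop :=
  Y1 D J a a.swap g ∨ Y3 D J a a.swap b g ∨ Y2 D J a a.swap j g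

/-- Left multiplication preserves the cosets. -/
def RR (D : Data m K Γ) (J : Finset (Ix m)) (a j b : Ix m) (g : Γ) : Prop :=
  ∀ y, YY D J a j b y → YY D J a j b (g * y)

omit C [Finite K] in
lemma RR.mul {g h : Γ} (hg : RR D J a j b g) (hh : RR D J a j b h) : RR D J a j b (g * h) := fun y hy => by
  rw [mul_assoc]
  exact hg _ (hh _ hy)

omit C [Finite K] in
lemma RR.one : RR D J a j b 1 := fun y hy => by simpa using hy

lemma L_R {l : Γ} (hl : l ∈ D.LV J) : RR D J a j b l := by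
  rintro g (⟨τ, hτ, z, hz, rfl⟩ | ⟨z, hz, rfl⟩ | ⟨l', hl', f, z, hz, rfl⟩)
  · refine Or.inl ⟨l * τ * l⁻¹, D.LV_conj_QQ C.hJ C.ha hl hτ, l * z,
      Subgroup.mul_mem _ (D.LV_le_ZZ hl) hz, by group⟩
  · refine Or.inr (Or.inl ⟨(D.WW a b (1 : K))⁻¹ * l * D.WW a b 1 * z,
      Subgroup.mul_mem _ (D.LV_le_ZZ (W_LV C hl)) hz, by group⟩)
  · exact Or.inr (Or.inr ⟨l * l', Subgroup.mul_mem _ hl hl', f, z, hz, by group⟩)

lemma T_R {τ₀ : Γ} (hτ₀ : τ₀ ∈ D.QQ J a) : RR D J a j b τ₀ := by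
  rintro g (⟨τ, hτ, z, hz, rfl⟩ | ⟨z, hz, rfl⟩ | ⟨l, hl, f, z, hz, rfl⟩)
  · exact Or.inl ⟨τ₀ * τ, Subgroup.mul_mem _ hτ₀ hτ, z, hz, by group⟩
  · refine Or.inr (Or.inl ⟨(D.WW a b (1 : K))⁻¹ * τ₀ * D.WW a b 1 * z,
      Subgroup.mul_mem _ (D.QQ_le_ZZ (W_QQ C hτ₀)) hz, by group⟩)
  · have h1 : l⁻¹ * τ₀ * l ∈ D.QQ J a := by
      have := D.LV_conj_QQ C.hJ C.ha (Subgroup.inv_mem _ hl) hτ₀
      simpa using this
    have h2 : l⁻¹ * τ₀ * l * D.X a j.swap f ∈ D.QQ J a :=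
      Subgroup.mul_mem _ h1 (D.mem_X C.hJ C.ha C.hj' f)
    obtain ⟨τ₂, hτ₂, z', hz'⟩ := D.TP_split C.hJ C.ha C.hj' h2
    have h4 := s_TP C hτ₂
    refine Or.inr (Or.inr ⟨l, hl, z', (D.wS a j (1 : K))⁻¹ * τ₂ * D.wS a j 1 * z,
      Subgroup.mul_mem _ h4 hz, ?_⟩)
    have hc : τ₂ * D.X a j.swap z' = D.X a j.swap z' * τ₂ :=
      D.QQ_comm (D.TP_le_QQ hτ₂) (D.mem_X C.hJ C.ha C.hj' _)
    calc τ₀ * (l * D.X a j.swap f * D.wS a j 1 * z)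
        = l * (l⁻¹ * τ₀ * l * D.X a j.swap f) * D.wS a j 1 * z := by group
      _ = l * (τ₂ * D.X a j.swap z') * D.wS a j 1 * z := by rw [hz']
      _ = l * (D.X a j.swap z' * τ₂) * D.wS a j 1 * z := by rw [hc]
      _ = _ := by group

lemma TOR_R {δ : Γ} (hδ : δ ∈ D.TOR (TS J a.swap)) : RR D J a j b δ := by
  obtain ⟨c, A⟩ := D.TOR_diag C.hm hδ
  rintro g (⟨τ, hτ, z, hz, rfl⟩ | ⟨z, hz, rfl⟩ | ⟨l, hl, f, z, hz, rfl⟩)
  · refine Or.inl ⟨δ * τ * δ⁻¹, A.conj_rt_diag hτ, δ * z, Subgroup.mul_mem _ (D.TOR_le_ZZ hδ) hz, by group⟩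
  · refine Or.inr (Or.inl ⟨(D.WW a b (1 : K))⁻¹ * δ * D.WW a b 1 * z,
      Subgroup.mul_mem _ (D.TOR_le_ZZ (W_TOR C hδ)) hz, by group⟩)
  · have h1 : δ * D.X a j.swap f * δ⁻¹ = D.X a j.swap (c a * c j.swap * f) := A.X C.sh' f
    rw [mul_inv_eq_iff_eq_mul] at h1
    refine Or.inr (Or.inr ⟨δ * l * δ⁻¹, A.conj_rt_diag hl, c a * c j.swap * f,
      (D.wS a j (1 : K))⁻¹ * δ * D.wS a j 1 * z, Subgroup.mul_mem _ (D.TOR_le_ZZ (si_TOR C hδ)) hz, ?_⟩)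
    calc δ * (l * D.X a j.swap f * D.wS a j 1 * z)
        = δ * l * δ⁻¹ * (δ * D.X a j.swap f) * D.wS a j 1 * z := by group
      _ = δ * l * δ⁻¹ * (D.X a j.swap (c a * c j.swap * f) * δ) * D.wS a j 1 * z := by rw [h1]
      _ = _ := by group

lemma HI_R {g : Γ} (hg : g ∈ HI D J a) : RR D J a j b g := by
  refine D.rt_ind (R := fun g => RR D J a j b g) RR.one ?_ hg
  rintro x y t g hxy (h | ⟨rfl, hy⟩) ih
  · exact (L_R C (D.rtX hxy h t)).mul ih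
  · exact (T_R C (D.mem_X C.hJ C.ha hy t)).mul ih

lemma s_YY {z : Γ} (hz : z ∈ D.ZZ J a.swap) : YY D J a j b (D.wS a j 1 * z) :=
  Or.inr (Or.inr ⟨1, Subgroup.one_mem _, 0, z, hz, by rw [D.X_zero C.sh', one_mul, one_mul]⟩)

lemma hh_mem_Z {x y : Ix m} (hxy : Sh x y) (hx : TS J a.swap x) (hy : TS J a.swap y) {c : K} (hc : c ≠ 0) :
    D.hh x y c ∈ D.ZZ J a.swap :=
  D.TOR_le_ZZ (D.hh_mem_TOR hxy hx hy hc)

lemma hhaj_TOR {c : K} (hc : c ≠ 0) : D.hh a j c ∈ D.TOR (TS J a.swap) :=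
  D.hh_mem_TOR C.sh (Or.inr (Or.inr (by rw [sw_sw]))) (Or.inl C.hj) hc

/-- The first computation. -/
lemma P1 (w : K) {z : Γ} (hz : z ∈ D.ZZ J a.swap) :
    YY D J a j b (D.X a.swap j.swap w * D.wS a j 1 * z) := by
  by_cases hv : w = 0
  · subst hv
    rw [D.X_zero C.sh.ss, one_mul]
    exact s_YY C hz
  · obtain ⟨ψ, h1, h2, h3, h4⟩ := D.exists_psi C.sh C.hm
    have he : -w ≠ 0 := neg_ne_zero.2 hv
    have h5 := congrArg ψ (I1 he)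
    simp only [map_mul, h1, h2, h3, h4, neg_neg] at h5
    refine Or.inl ⟨D.X a j (-w)⁻¹, D.mem_X C.hJ C.ha C.hj _, D.hh a j (-w)⁻¹ * D.X a.swap j.swap (-w)⁻¹ * z, ?_, ?_⟩
    · refine Subgroup.mul_mem _ (Subgroup.mul_mem _ (D.TOR_le_ZZ (hhaj_TOR C (inv_ne_zero he))) ?_) hz
      exact D.QQ_le_ZZ (D.mem_X C.hJ C.ha' C.hj' _)
    · rw [h5]
      group

lemma s_Y1 {τ : Γ} (hτ : τ ∈ D.QQ J a) {z : Γ} (hz : z ∈ D.ZZ J a.swap) :
    YY D J a j b (D.wS a j 1 * (τ * z)) := by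
  obtain ⟨τ₀, hτ₀, w, rfl⟩ := D.TP_split C.hJ C.ha C.hj hτ
  have hμ := s_TP' C hτ₀
  have h1 : D.wS a j (1 : K) * D.X a j w * (D.wS a j (1 : K))⁻¹ = D.X a.swap j.swap w := by
    rw [D.T10 C.sh one_ne_zero C.hm]
    simp
  have h := HI_R C hμ _ (P1 C w hz)
  convert h using 1
  rw [← h1]
  group

lemma s_Y3 {z : Γ} (hz : z ∈ D.ZZ J a.swap) : YY D J a j b (D.wS a j 1 * (D.WW a b 1 * z)) := by
  have A := D.s_acts C
  have hoff := b_off C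
  have hoff' := b'_off C
  have e : D.wS a j (1 : K) * D.WW a b 1 * (D.wS a j (1 : K))⁻¹ ∈ D.LV J := by
    have e1 : D.wS a j (1 : K) * D.WW a b 1 * (D.wS a j (1 : K))⁻¹ =
        (D.wS a j (1 : K) * D.wS a b 1 * (D.wS a j (1 : K))⁻¹) * (D.wS a j (1 : K) * D.wS a b.swap 1 * (D.wS a j (1 : K))⁻¹) := by
      rw [WW]
      group
    rw [e1, A.wS C.shb, A.wS C.shb.sr, piS_a C.sh, piS_off hoff, piS_off hoff']
    have hs1 : Sh j.swap b := ⟨fun e => C.hbj' e.symm, fun e => C.hbj (by simpa [sw_sw] using e)⟩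
    exact Subgroup.mul_mem _ (D.wS_mem_LV C.hJ C.hj' C.hb hs1 _) (D.wS_mem_LV C.hJ C.hj' C.hb' hs1.sr _)
  have h := L_R C e _ (s_YY C hz)
  convert h using 1
  group

/-- The second computation. -/
lemma P2 (f : K) {z : Γ} (hz : z ∈ D.ZZ J a.swap) :
    YY D J a j b (D.WW a b 1 * D.X a j.swap f * z) := by
  by_cases hf : f = 0
  · subst hf
    rw [D.X_zero C.sh', mul_one]
    exact Or.inr (Or.inl ⟨z, hz, rfl⟩)
  · obtain ⟨ψ, h1, h2, h3, -⟩ := D.exists_psi C.sh' C.hm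
    rw [sw_sw] at h2
    have h4 := congrArg ψ (I7 hf)
    simp only [map_mul, h1, h2, h3] at h4
    set p : K := -f⁻¹ with hp
    obtain ⟨c, A⟩ := D.acts_WW C.shb C.hm (one_ne_zero (α := K))
    have hjo := j_offb C
    have hjo' := j'_offb C
    -- the action of `W`
    have e1 : D.WW a b 1 * D.X a.swap j p * (D.WW a b (1 : K))⁻¹ = _ := A.X (C.sh2 C.hj) p
    rw [piW_a' C.shb, piW_off hjo] at e1
    have e2 : D.WW a b 1 * D.wS a j.swap f * (D.WW a b (1 : K))⁻¹ = _ := A.wS C.sh' f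
    rw [piW_a C.shb, piW_off hjo'] at e2
    set e : K := c a * c j.swap * f with he
    have he0 : e ≠ 0 := mul_ne_zero (mul_ne_zero (A.c_ne _) (A.c_ne _)) hf
    rw [D.wS_sw C.sh C.hm he0] at e2
    have e3 : D.wS a j e⁻¹ = D.hh a j e⁻¹ * D.wS a j 1 := by
      rw [D.hh_wS C.sh C.hm (inv_ne_zero he0) one_ne_zero, mul_one]
    set z' := D.X a.swap j p * z with hz'
    have hz'm : z' ∈ D.ZZ J a.swap :=
      Subgroup.mul_mem _ (D.QQ_le_ZZ (D.mem_X C.hJ C.ha' C.hj _)) hz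
    have h := (T_R C (D.mem_X C.hJ C.ha C.hj (c a.swap * c j * p))).mul
      (TOR_R C (hhaj_TOR C (inv_ne_zero he0))) _ (s_Y3 C hz'm)
    convert h using 1
    calc D.WW a b 1 * D.X a j.swap f * z
        = D.WW a b 1 * (D.X a.swap j p * D.wS a j.swap f * D.X a.swap j p) * z := by rw [h4]
      _ = (D.WW a b 1 * D.X a.swap j p * (D.WW a b (1 : K))⁻¹) *
          (D.WW a b 1 * D.wS a j.swap f * (D.WW a b (1 : K))⁻¹) * (D.WW a b 1 * z') := by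
          rw [hz']
          group
      _ = _ := by
          rw [e1, e2, e3]
          group

end Conj

end Data

end Cfsg.Agent.Lib.DnN
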