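import Mathlib
import Cfsg.Agent.Lib.DnC

/-!
# Steinberg relations of type `D_m`: the closure of the cosets
-/

set_option autoImplicit false
set_option linter.unusedVariables false
set_option linter.unusedSectionVars false

namespace Cfsg.Agent.Lib.DnN

open Cfsg.Agent.Lib.SpN (Ix Sh sw_sw sw_ne sw_inj sw_ne_sw ne_sw_symm)

namespace Data

variable {m : ℕ} {K Γ : Type*} [Field K] [Group Γ] {D : Data m K Γ} [Finite K]
variable {J : Finset (Ix m)} {a j b : Ix m} (C : Ctx J a j b)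
include C

lemma b_Jp : b ∈ Jp J j := mem_Jp.2 ⟨C.hb, C.hbj, C.hbj'⟩

/-- The generators of `ZZ` absorbed on the left. -/
def Abs (D : Data m K Γ) (J : Finset (Ix m)) (a j : Ix m) (h : Γ) : Prop :=
  ∀ f : K, ∃ f' : K, ∃ y₂ ∈ D.ZZ J a.swap, h * D.X a j.swap f * D.wS a j 1 = D.X a j.swap f' * D.wS a j 1 * y₂

omit C [Finite K] in
lemma Abs.mul {x y : Γ} (hx : Abs D J a j x) (hy : Abs D J a j y) : Abs D J a j (x * y) := by
  intro f
  obtain ⟨f', y₂, hy₂, e⟩ := hy f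
  obtain ⟨f'', y₃, hy₃, e'⟩ := hx f'
  refine ⟨f'', y₃ * y₂, Subgroup.mul_mem _ hy₃ hy₂, ?_⟩
  calc x * y * D.X a j.swap f * D.wS a j 1 = x * (y * D.X a j.swap f * D.wS a j 1) := by group
    _ = x * (D.X a j.swap f' * D.wS a j 1 * y₂) := by rw [e]
    _ = (x * D.X a j.swap f' * D.wS a j 1) * y₂ := by group
    _ = _ := by rw [e']; group

lemma Abs_X1 {x y : Ix m} (hxy : Sh x y) (hx : x ∈ Jp J j) (hy : y ∈ Jp J j) (t : K) :
    Abs D J a j (D.X x y t) := by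
  intro f
  obtain ⟨h1, h2, h3, h4⟩ := Jp_off C hx
  obtain ⟨h5, h6, h7, h8⟩ := Jp_off C hy
  have hxJ := (mem_Jp.1 hx).1
  have hyJ := (mem_Jp.1 hy).1
  refine ⟨f, D.X x y t, D.LV_le_ZZ (D.rtX hxy ⟨hxJ, hyJ⟩ t), ?_⟩
  have e1 := D.commXX C.sh' hxy h4 (by rw [sw_sw]; exact h3) h8 (by rw [sw_sw]; exact h7) f t
  have e2 := D.T12 C.sh hxy h1 h4 h3 h2 h5 h8 h7 h6 t (t := (1 : K))
  rw [mul_inv_eq_iff_eq_mul] at e2
  calc D.X x y t * D.X a j.swap f * D.wS a j 1 = D.X a j.swap f * D.X x y t * D.wS a j 1 := by rw [e1]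
    _ = D.X a j.swap f * (D.X x y t * D.wS a j 1) := by group
    _ = D.X a j.swap f * (D.wS a j 1 * D.X x y t) := by rw [e2]
    _ = _ := by group

lemma Abs_X2 {y : Ix m} (hxy : Sh j y) (hy : y ∈ Jp J j) (t : K) :
    Abs D J a j (D.X j y t) := by
  intro f
  obtain ⟨h5, h6, h7, h8⟩ := Jp_off C hy
  have hyJ := (mem_Jp.1 hy).1
  have hs := C.sh'
  have h0 := D.relC hs (d := y) h5 h8 h6 (by rw [sw_sw]; exact h7) (-f) t
  rw [sw_sw, D.X_inv hs, neg_neg] at h0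
  have A := D.si_acts C
  have hay : Sh a y := C.sh1 hyJ
  have e1 : D.wS a j (-1 : K) * D.X j y t * (D.wS a j (-1 : K))⁻¹ = _ := A.X hxy t
  rw [piS_b C.sh, piS_off (Jp_off C hy)] at e1
  have e2 : D.wS a j (-1 : K) * D.X a y (-f * t) * (D.wS a j (-1 : K))⁻¹ = _ := A.X hay (-f * t)
  rw [piS_a C.sh, piS_off (Jp_off C hy)] at e2
  have hsi := D.s_inv C
  refine ⟨f, (D.wS a j (1 : K))⁻¹ * (D.X j y t * D.X a y (-f * t)) * D.wS a j 1, ?_, ?_⟩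
  · have e3 : (D.wS a j (1 : K))⁻¹ * (D.X j y t * D.X a y (-f * t)) * D.wS a j 1 =
        (D.wS a j (-1 : K) * D.X j y t * (D.wS a j (-1 : K))⁻¹) * (D.wS a j (-1 : K) * D.X a y (-f * t) * (D.wS a j (-1 : K))⁻¹) := by
      rw [← hsi, inv_inv]
      group
    rw [e3, e1, e2]
    refine Subgroup.mul_mem _ (D.QQ_le_ZZ (D.mem_X C.hJ C.ha' hyJ _)) (D.LV_le_ZZ (D.rtX ?_ ⟨C.hj', hyJ⟩ _))
    exact ⟨(h6).symm, by rw [sw_sw]; exact h7⟩
  · have e3 : D.X j y t * D.X a j.swap f = D.X a j.swap f * (D.X j y t * D.X a y (-f * t)) := by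
      rw [← h0]
      have e4 : D.X a j.swap f * D.X a j.swap (-f) = 1 := by
        rw [D.addX hs, add_neg_cancel, D.X_zero hs]
      calc D.X j y t * D.X a j.swap f = (D.X a j.swap f * D.X a j.swap (-f)) * (D.X j y t * D.X a j.swap f) := by
            rw [e4, one_mul]
        _ = _ := by group
    rw [e3]
    group

lemma Abs_T {δ : Γ} (hδ : δ ∈ D.TOR (TS J a.swap)) : Abs D J a j δ := by
  intro f
  obtain ⟨c, A⟩ := D.TOR_diag C.hm hδ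
  have h1 : δ * D.X a j.swap f * δ⁻¹ = D.X a j.swap (c a * c j.swap * f) := A.X C.sh' f
  rw [mul_inv_eq_iff_eq_mul] at h1
  refine ⟨c a * c j.swap * f, (D.wS a j (1 : K))⁻¹ * δ * D.wS a j 1, D.TOR_le_ZZ (si_TOR C hδ), ?_⟩
  rw [h1]
  group

lemma Abs_of_mem {h : Γ} (hh : h ∈ D.ZZ (Jp J j) j) : Abs D J a j h := by
  have hTS : ∀ {x}, TS (Jp J j) j x → TS J a.swap x := by
    rintro x (hx | rfl | rfl)
    · exact Or.inl (mem_Jp.1 hx).1
    · exact Or.inl C.hj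
    · exact Or.inl C.hj'
  induction hh using Subgroup.closure_induction_left with
  | one =>
    intro f
    exact ⟨f, 1, Subgroup.one_mem _, by simp⟩
  | mul_left x hx y hy ih =>
    refine Abs.mul ?_ ih
    rcases hx with ⟨x, y, t, hxy, (⟨hx, hy⟩ | ⟨rfl, hy⟩), rfl⟩ | ⟨x, y, c, hxy, hx, hy, hc, rfl⟩
    · exact Abs_X1 C hxy hx hy t
    · exact Abs_X2 C hxy hy t
    · exact Abs_T C (D.hh_mem_TOR hxy (hTS hx) (hTS hy) hc)
  | inv_mul_cancel x hx y hy ih =>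
    refine Abs.mul ?_ ih
    rcases hx with ⟨x, y, t, hxy, (⟨hx, hy⟩ | ⟨rfl, hy⟩), rfl⟩ | ⟨x, y, c, hxy, hx, hy, hc, rfl⟩
    · rw [D.X_inv hxy]
      exact Abs_X1 C hxy hx hy _
    · rw [D.X_inv hxy]
      exact Abs_X2 C hxy hy _
    · rw [D.hh_inv hxy C.hm hc]
      exact Abs_T C (D.hh_mem_TOR hxy (hTS hx) (hTS hy) (inv_ne_zero hc))

lemma s_sq_mem : D.wS a j (1 : K) * D.wS a j 1 ∈ D.ZZ J a.swap := by
  rw [D.wS_sq C.sh C.hm]
  exact D.TOR_le_ZZ (hhaj_TOR C Ctx.hn1)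

lemma s_QQ {τ : Γ} (hτ : τ ∈ D.QQ (Jp J j) j.swap) :
    D.wS a j (1 : K) * τ * (D.wS a j (1 : K))⁻¹ ∈ D.QQ J a := by
  refine (D.s_acts C).conj_rt ?_ hτ
  rintro x y hxy ⟨rfl, hy⟩
  rw [piS_b' C.sh, piS_off (Jp_off C hy)]
  exact Or.inl ⟨rfl, (mem_Jp.1 hy).1⟩

lemma case1 {τ' : Γ} (hτ' : τ' ∈ D.QQ (Jp J j) j.swap) (f : K) {y₂ : Γ} (hy₂ : y₂ ∈ D.ZZ J a.swap) :
    YY D J a j b (D.wS a j 1 * (τ' * (D.X a j.swap f * D.wS a j 1 * y₂))) := by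
  refine Or.inl ⟨(D.wS a j (1 : K) * τ' * (D.wS a j (1 : K))⁻¹) * D.X a j.swap f,
    Subgroup.mul_mem _ (s_QQ C hτ') (D.mem_X C.hJ C.ha C.hj' _), D.wS a j 1 * D.wS a j 1 * y₂,
    Subgroup.mul_mem _ (s_sq_mem C) hy₂, ?_⟩
  have e := D.T5 C.sh (one_ne_zero (α := K)) f
  calc D.wS a j 1 * (τ' * (D.X a j.swap f * D.wS a j 1 * y₂))
      = (D.wS a j 1 * τ' * (D.wS a j (1 : K))⁻¹) * (D.wS a j 1 * D.X a j.swap f * (D.wS a j (1 : K))⁻¹) *
        (D.wS a j 1 * D.wS a j 1 * y₂) := by group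
    _ = _ := by rw [e]

lemma case3 (f : K) {y₂ : Γ} (hy₂ : y₂ ∈ D.ZZ J a.swap) :
    YY D J a j b (D.wS a j 1 * (D.WW j.swap b 1 * (D.X a j.swap f * D.wS a j 1 * y₂))) := by
  have A := D.s_acts C
  have hoff := b_off C
  have hoff' := b'_off C
  have hs1 : Sh j.swap b := ⟨fun e => C.hbj' e.symm, fun e => C.hbj (by simpa [sw_sw] using e)⟩
  have e0 := D.T5 C.sh (one_ne_zero (α := K)) f
  have e1 : D.wS a j (1 : K) * D.WW j.swap b 1 * (D.wS a j (1 : K))⁻¹ = D.WW a b 1 := by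
    have e2 : D.wS a j (1 : K) * D.WW j.swap b 1 * (D.wS a j (1 : K))⁻¹ =
        (D.wS a j (1 : K) * D.wS j.swap b 1 * (D.wS a j (1 : K))⁻¹) * (D.wS a j (1 : K) * D.wS j.swap b.swap 1 * (D.wS a j (1 : K))⁻¹) := by
      rw [WW]
      group
    rw [e2, A.wS hs1, A.wS hs1.sr, piS_b' C.sh, piS_off hoff, piS_off hoff', cS_b' C.sh, cS_off _ hoff, cS_off _ hoff', WW]
    simp
  have h := P2 C f (Subgroup.mul_mem _ (s_sq_mem C) hy₂)
  convert h using 1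
  calc D.wS a j 1 * (D.WW j.swap b 1 * (D.X a j.swap f * D.wS a j 1 * y₂))
      = (D.wS a j 1 * D.WW j.swap b 1 * (D.wS a j (1 : K))⁻¹) * (D.wS a j 1 * D.X a j.swap f * (D.wS a j (1 : K))⁻¹) *
        (D.wS a j 1 * D.wS a j 1 * y₂) := by group
    _ = _ := by
      rw [e1, e0]

lemma case2 {j₂ : Ix m} (hj₂ : j₂ ∈ Jp J j) {l' : Γ} (hl' : l' ∈ D.LV (Jp J j)) (g f : K) {y₂ : Γ}
    (hy₂ : y₂ ∈ D.ZZ J a.swap) :
    YY D J a j b (D.wS a j 1 * (l' * D.X j.swap j₂.swap g * D.wS j.swap j₂ 1 * (D.X a j.swap f * D.wS a j 1 * y₂))) := by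
  have hn1 : (-1 : K) ≠ 0 := neg_ne_zero.2 one_ne_zero
  obtain ⟨h2J, h2a, h2b⟩ := mem_Jp.1 hj₂
  have h2' : j₂.swap ∈ Jp J j := Jp_swap C hj₂
  have h2J' : j₂.swap ∈ J := C.hJ _ h2J
  have S1 : Sh j.swap j₂ := ⟨h2b.symm, by rw [sw_sw]; exact h2a⟩
  have S2 : Sh j.swap j₂.swap := S1.sr
  have S3 : Sh a j₂ := C.sh1 h2J
  have A := D.s_acts C
  have hcomm : D.wS a j (1 : K) * l' = l' * D.wS a j 1 :=
    D.comm_LV A (fun x hx => piS_off (Jp_off C hx)) (fun x hx => cS_off 1 (Jp_off C hx)) hl'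
  have e1 := A.X S2 g
  rw [piS_b' C.sh, piS_off (Jp_off C h2')] at e1
  have hτ : D.X a j₂.swap (cS a j 1 j.swap * cS a j 1 j₂.swap * g) ∈ D.QQ J a := D.mem_X C.hJ C.ha h2J' _
  have e2 := A.wS S1 (1 : K)
  rw [piS_b' C.sh, piS_off (Jp_off C hj₂), cS_b' C.sh, cS_off 1 (Jp_off C hj₂)] at e2
  simp only [mul_one] at e2
  have e3 := D.T5 C.sh (one_ne_zero (α := K)) f
  -- `w₃` on `x_{a j̄}`
  have e4 := D.T1 S3 (one_ne_zero (α := K)) (d := j.swap) (C.ne1 C.hj') (C.ne2 C.hj') h2b.symm (sw_ne_sw h2a.symm) f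
  have hl3 : D.X j₂.swap j.swap (-(1 : K)⁻¹ * f) ∈ D.LV J :=
    D.rtX ⟨sw_ne_sw h2a, by rw [sw_sw]; exact h2b.symm⟩ ⟨h2J', C.hj'⟩ _
  -- `w₃` in terms of `s`
  have A₃ := D.acts_wS S1 hn1 C.hm
  have e5 := A₃.wS C.sh (1 : K)
  have h21 : piS j.swap j₂ j = j₂ := by simpa [sw_sw] using piS_a' S1
  have h22 : cS j.swap j₂ (-1 : K) j = - -1 := by simpa [sw_sw] using cS_a' S1 (-1 : K)
  have hoffa : a ≠ j.swap ∧ a ≠ j₂.swap ∧ a ≠ j₂ ∧ a ≠ j.swap.swap := by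
    refine ⟨(C.ne1 C.hj').symm, (C.ne1 h2J').symm, (C.ne1 h2J).symm, ?_⟩
    rw [sw_sw]
    exact (C.ne1 C.hj).symm
  rw [piS_off hoffa, h21, h22, cS_off _ hoffa] at e5
  simp only [one_mul, mul_one, neg_neg] at e5
  have hi : (D.wS j.swap j₂ (1 : K))⁻¹ = D.wS j.swap j₂ (-1) := D.wS_inv S1 1
  rw [← hi, inv_inv] at e5
  have hs1 : D.wS j.swap j₂ (1 : K) ∈ D.LV J := D.wS_mem_LV C.hJ C.hj' h2J S1 _
  have hZ : D.wS j.swap j₂ 1 * ((D.wS a j 1 * D.wS a j 1) * y₂) ∈ D.ZZ J a.swap :=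
    Subgroup.mul_mem _ (D.LV_le_ZZ hs1) (Subgroup.mul_mem _ (s_sq_mem C) hy₂)
  have hL' : l' ∈ D.LV J := D.rt_mono (fun x y _ h => ⟨(mem_Jp.1 h.1).1, (mem_Jp.1 h.2).1⟩) hl'
  have h := (L_R C hL').mul ((T_R C hτ).mul ((L_R C hl3).mul (L_R C (Subgroup.inv_mem _ hs1)))) _ (s_YY C hZ)
  convert h using 1
  rw [mul_inv_eq_iff_eq_mul] at e4
  calc D.wS a j 1 * (l' * D.X j.swap j₂.swap g * D.wS j.swap j₂ 1 * (D.X a j.swap f * D.wS a j 1 * y₂))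
      = (D.wS a j 1 * l') * D.X j.swap j₂.swap g * D.wS j.swap j₂ 1 * (D.X a j.swap f * D.wS a j 1 * y₂) := by group
    _ = l' * (D.wS a j 1 * D.X j.swap j₂.swap g * (D.wS a j (1 : K))⁻¹) *
        (D.wS a j 1 * D.wS j.swap j₂ 1 * (D.wS a j (1 : K))⁻¹) * (D.wS a j 1 * D.X a j.swap f * (D.wS a j (1 : K))⁻¹) *
        (D.wS a j 1 * D.wS a j 1 * y₂) := by
      rw [hcomm]
      group
    _ = l' * D.X a j₂.swap (cS a j 1 j.swap * cS a j 1 j₂.swap * g) * (D.wS a j₂ 1 * D.X a j.swap f) *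
        (D.wS a j 1 * D.wS a j 1 * y₂) := by
      rw [e1, e2, e3]
      group
    _ = l' * D.X a j₂.swap (cS a j 1 j.swap * cS a j 1 j₂.swap * g) * (D.X j₂.swap j.swap (-(1 : K)⁻¹ * f) * D.wS a j₂ 1) *
        (D.wS a j 1 * D.wS a j 1 * y₂) := by rw [e4]
    _ = _ := by
      rw [← e5]
      group

/-- The induction hypothesis. -/
def IHyp (D : Data m K Γ) (J : Finset (Ix m)) (j b : Ix m) : Prop :=
  ∀ l ∈ D.LV J, Y1 D (Jp J j) j.swap j l ∨ Y3 D (Jp J j) j.swap j b l ∨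
    ∃ j₂ ∈ Jp J j, Y2 D (Jp J j) j.swap j j₂ l

lemma s_Y2 (hI : IHyp D J j b) {l : Γ} (hl : l ∈ D.LV J) (f : K) {y : Γ} (hy : y ∈ D.ZZ J a.swap) :
    YY D J a j b (D.wS a j 1 * (l * D.X a j.swap f * D.wS a j 1 * y)) := by
  rcases hI l hl with ⟨τ', hτ', y', hy', rfl⟩ | ⟨y', hy', rfl⟩ | ⟨j₂, hj₂, l', hl', f', y', hy', rfl⟩
  · obtain ⟨f₂, y₂, hy₂, e⟩ := Abs_of_mem C hy' f
    have h := case1 C hτ' f₂ (Subgroup.mul_mem _ hy₂ hy)
    convert h using 1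
    calc D.wS a j 1 * (τ' * y' * D.X a j.swap f * D.wS a j 1 * y)
        = D.wS a j 1 * (τ' * (y' * D.X a j.swap f * D.wS a j 1) * y) := by group
      _ = _ := by rw [e]; group
  · obtain ⟨f₂, y₂, hy₂, e⟩ := Abs_of_mem C hy' f
    have h := case3 C f₂ (Subgroup.mul_mem _ hy₂ hy)
    convert h using 1
    calc D.wS a j 1 * (D.WW j.swap b 1 * y' * D.X a j.swap f * D.wS a j 1 * y)
        = D.wS a j 1 * (D.WW j.swap b 1 * (y' * D.X a j.swap f * D.wS a j 1) * y) := by group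
      _ = _ := by rw [e]; group
  · obtain ⟨f₂, y₂, hy₂, e⟩ := Abs_of_mem C hy' f
    have h := case2 C hj₂ hl' f' f₂ (Subgroup.mul_mem _ hy₂ hy)
    convert h using 1
    calc D.wS a j 1 * (l' * D.X j.swap j₂.swap f' * D.wS j.swap j₂ 1 * y' * D.X a j.swap f * D.wS a j 1 * y)
        = D.wS a j 1 * (l' * D.X j.swap j₂.swap f' * D.wS j.swap j₂ 1 * (y' * D.X a j.swap f * D.wS a j 1) * y) := by group
      _ = _ := by rw [e]; group

lemma s_R (hI : IHyp D J j b) : RR D J a j b (D.wS a j 1) := by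
  rintro g (⟨τ, hτ, z, hz, rfl⟩ | ⟨z, hz, rfl⟩ | ⟨l, hl, f, z, hz, rfl⟩)
  · exact s_Y1 C hτ hz
  · exact s_Y3 C hz
  · exact s_Y2 C hI hl f hz

lemma si_R (hI : IHyp D J j b) : RR D J a j b (D.wS a j 1)⁻¹ := by
  have hn1 : (-1 : K) ≠ 0 := neg_ne_zero.2 one_ne_zero
  have e : (D.wS a j (1 : K))⁻¹ = D.wS a j 1 * (D.hh a j (-1))⁻¹ := by
    rw [← D.wS_sq C.sh C.hm]
    group
  rw [e, D.hh_inv C.sh C.hm hn1]
  exact (s_R C hI).mul (TOR_R C (hhaj_TOR C (inv_ne_zero hn1)))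

lemma gen_X (hI : IHyp D J j b) {d : Ix m} (hd : d ∈ J) (t : K) : RR D J a j b (D.X a.swap d t) := by
  have base : ∀ t : K, RR D J a j b (D.X a.swap j.swap t) := by
    intro t
    have h1 := D.T10 C.sh (one_ne_zero (α := K)) C.hm t
    simp only [inv_one, one_mul] at h1
    rw [← h1]
    exact ((s_R C hI).mul (T_R C (D.mem_X C.hJ C.ha C.hj _))).mul (si_R C hI)
  by_cases h1 : d = j.swap
  · subst h1
    exact base t
  · by_cases h2 : d = j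
    · subst h2
      obtain ⟨c, A⟩ := D.acts_WW C.shjb C.hm (one_ne_zero (α := K))
      have hoff : a.swap ≠ d ∧ a.swap ≠ b.swap ∧ a.swap ≠ b ∧ a.swap ≠ d.swap :=
        ⟨(C.ne2 C.hj).symm, (C.ne2 C.hb').symm, (C.ne2 C.hb).symm, (C.ne2 C.hj').symm⟩
      have hc0 : c a.swap * c d.swap ≠ 0 := mul_ne_zero (A.c_ne _) (A.c_ne _)
      have e : D.WW d b 1 * D.X a.swap d.swap ((c a.swap * c d.swap)⁻¹ * t) * (D.WW d b (1 : K))⁻¹ = _ :=
        A.X (C.sh2 C.hj') ((c a.swap * c d.swap)⁻¹ * t)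
      rw [piW_off hoff, piW_a' C.shjb, ← mul_assoc, mul_inv_cancel₀ hc0, one_mul] at e
      rw [← e]
      have hW : D.WW d b (1 : K) ∈ D.LV J :=
        Subgroup.mul_mem _ (D.wS_mem_LV C.hJ C.hj C.hb C.shjb _) (D.wS_mem_LV C.hJ C.hj C.hb' C.shjb.sr _)
      exact ((L_R C hW).mul (base _)).mul (L_R C (Subgroup.inv_mem _ hW))
    · have S : Sh j d := ⟨Ne.symm h2, h1⟩
      have e := D.T3 C.sh (one_ne_zero (α := K)) (C.ne1 hd) (C.ne2 hd) h2 h1 t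
      simp only [inv_one, one_mul] at e
      rw [← e]
      exact ((s_R C hI).mul (L_R C (D.rtX S ⟨C.hj, hd⟩ _))).mul (si_R C hI)

omit C in
lemma mem_ins {x : Ix m} : x ∈ insert a (insert a.swap J) ↔ x ∈ J ∨ x = a ∨ x = a.swap := by
  simp only [Finset.mem_insert]
  tauto

lemma all_R (hI : IHyp D J j b) {g : Γ} (hg : g ∈ D.LV (insert a (insert a.swap J))) : RR D J a j b g := by
  refine D.rt_ind (R := fun g => RR D J a j b g) RR.one ?_ hg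
  rintro x y t g hxy ⟨hx, hy⟩ ih
  refine RR.mul ?_ ih
  rcases mem_ins.1 hx with hx' | hx' | hx' <;> rcases mem_ins.1 hy with hy' | hy' | hy' <;> (try subst x) <;> (try subst y)
  · exact L_R C (D.rtX hxy ⟨hx', hy'⟩ t)
  · exact T_R C (D.mem_X' C.hJ C.ha hx' t)
  · rw [D.Xsym hxy]
    exact gen_X C hI hx' _
  · exact T_R C (D.mem_X C.hJ C.ha hy' t)
  · exact absurd rfl hxy.1
  · exact absurd rfl hxy.2
  · exact gen_X C hI hy' t
  · exact absurd (sw_sw _).symm hxy.2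
  · exact absurd rfl hxy.1

/-- The closure theorem. -/
theorem Y_all (hI : IHyp D J j b) {g : Γ} (hg : g ∈ D.LV (insert a (insert a.swap J))) : YY D J a j b g := by
  have h1 : YY D J a j b 1 := Or.inl ⟨1, Subgroup.one_mem _, 1, Subgroup.one_mem _, by simp⟩
  have := all_R C hI hg 1 h1
  simpa using this

/-- The inductive step of the covering. -/
theorem step_cover (hI : IHyp D J j b) {R : Finset Γ}
    (hR : ∀ g ∈ D.LV J, ∃ r ∈ R, ∃ h ∈ D.ZZ (Jp J j) j, g = r * h) :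
    ∃ F : Finset Γ, F.card ≤ Nat.card K ^ J.card + R.card * Nat.card K + 1 ∧
      ∀ g ∈ D.LV (insert a (insert a.swap J)), ∃ r ∈ F, ∃ y ∈ D.ZZ J a.swap, g = r * y := by
  classical
  haveI := Fintype.ofFinite K
  obtain ⟨FT, hFT, hT⟩ := D.exists_cover_QQ C.hJ C.ha
  let F2 : Finset Γ := (R ×ˢ (Finset.univ : Finset K)).image fun p => p.1 * D.X a j.swap p.2 * D.wS a j 1
  refine ⟨FT ∪ F2 ∪ {D.WW a b 1}, ?_, ?_⟩
  · refine (Finset.card_union_le _ _).trans (Nat.add_le_add ((Finset.card_union_le _ _).trans (Nat.add_le_add hFT ?_)) (by simp))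
    refine Finset.card_image_le.trans ?_
    rw [Finset.card_product, Finset.card_univ, ← Nat.card_eq_fintype_card]
  · intro g hg
    rcases Y_all C hI hg with ⟨τ, hτ, z, hz, rfl⟩ | ⟨z, hz, rfl⟩ | ⟨l, hl, f, z, hz, rfl⟩
    · exact ⟨τ, Finset.mem_union_left _ (Finset.mem_union_left _ (hT τ hτ)), z, hz, rfl⟩
    · exact ⟨D.WW a b 1, Finset.mem_union_right _ (by simp), z, hz, rfl⟩
    · obtain ⟨r, hr, h0, hh0, rfl⟩ := hR l hl
      obtain ⟨f₂, y₂, hy₂, e⟩ := Abs_of_mem C hh0 f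
      refine ⟨r * D.X a j.swap f₂ * D.wS a j 1, Finset.mem_union_left _ (Finset.mem_union_right _ ?_), y₂ * z,
        Subgroup.mul_mem _ hy₂ hz, ?_⟩
      · simp only [F2, Finset.mem_image, Finset.mem_product, Finset.mem_univ, and_true]
        exact ⟨(r, f₂), hr, rfl⟩
      · calc r * h0 * D.X a j.swap f * D.wS a j 1 * z = r * (h0 * D.X a j.swap f * D.wS a j 1) * z := by group
          _ = r * (D.X a j.swap f₂ * D.wS a j 1 * y₂) * z := by rw [e]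
          _ = _ := by group

end Data

end Cfsg.Agent.Lib.DnN
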