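import Mathlib
import Cfsg.Agent.Lib.DnD

/-!
# Steinberg relations of type `D_m`: the induction and the order bound
-/

set_option autoImplicit false
set_option linter.unusedVariables false
set_option linter.unusedSectionVars false

namespace Cfsg.Agent.Lib.DnN

open Cfsg.Agent.Lib.SpN (Ix Sh sw_sw sw_ne sw_inj sw_ne_sw ne_sw_symm I10)
open Cfsg.Agent.Lib.St2
open Cfsg.Agent.Lib.StN (MW MD decomp)

/-- The number of singular points, from rank two on. -/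
def PP (q : ℕ) : ℕ → ℕ
  | 0 => (q + 1) ^ 2
  | k + 1 => q ^ (2 * (k + 2)) + PP q k * q + 1

/-- The order bound. -/
def NG (q : ℕ) : ℕ → ℕ
  | 0 => (q + 1) ^ 2 * (q ^ 2 * (q - 1) ^ 2)
  | k + 1 => PP q (k + 1) * (q ^ (2 * (k + 2)) * (q - 1) * NG q k)

/-- The order of the kernel of the spin cover. -/
noncomputable def gK (K : Type*) [Field K] : ℕ := by
  classical exact if (-1 : K) = 1 then 1 else 2

lemma comm_of_gen {K Γ : Type*} [Field K] [Group Γ] (ψ₁ ψ₂ : Matrix.SpecialLinearGroup (Fin 2) K →* Γ)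
    (h : ∀ p q, Commute (ψ₁ (mx K p)) (ψ₂ (mx K q))) (A B : Matrix.SpecialLinearGroup (Fin 2) K) :
    Commute (ψ₁ A) (ψ₂ B) := by
  have hA := mx_surj A
  induction hA using Subgroup.closure_induction with
  | mem x hx =>
    obtain ⟨p, rfl⟩ := hx
    have hB := mx_surj B
    induction hB using Subgroup.closure_induction with
    | mem y hy =>
      obtain ⟨q, rfl⟩ := hy
      exact h p q
    | one => simp
    | mul x y _ _ hx hy =>
      rw [map_mul]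
      exact hx.mul_right hy
    | inv x _ hx =>
      rw [map_inv]
      exact hx.inv_right
  | one => simp
  | mul x y _ _ hx hy =>
    rw [map_mul]
    exact hx.mul_left hy
  | inv x _ hx =>
    rw [map_inv]
    exact hx.inv_left

namespace Data

variable {m : ℕ} {K Γ : Type*} [Field K] [Group Γ] {D : Data m K Γ} [Finite K]

/-- Induction on the generators of `ZZ`. -/
theorem ZZ_ind (hm : 3 ≤ m) {J : Finset (Ix m)} {n : Ix m} {R : Γ → Prop} (h1 : R 1)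
    (hx : ∀ x y t g, Sh x y → x ∈ J → y ∈ J → R g → R (D.X x y t * g))
    (hn : ∀ y t g, Sh n y → y ∈ J → R g → R (D.X n y t * g))
    (hh : ∀ x y c g, Sh x y → TS J n x → TS J n y → c ≠ 0 → R g → R (D.hh x y c * g))
    {g : Γ} (hg : g ∈ D.ZZ J n) : R g := by
  induction hg using Subgroup.closure_induction_left with
  | one => exact h1
  | mul_left x hx' y hy ih =>
    rcases hx' with ⟨x, y, t, hxy, (⟨hx', hy'⟩ | ⟨rfl, hy'⟩), rfl⟩ | ⟨x, y, c, hxy, hx', hy', hc, rfl⟩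
    · exact hx _ _ _ _ hxy hx' hy' ih
    · exact hn _ _ _ hxy hy' ih
    · exact hh _ _ _ _ hxy hx' hy' hc ih
  | inv_mul_cancel x hx' y hy ih =>
    rcases hx' with ⟨x, y, t, hxy, (⟨hx', hy'⟩ | ⟨rfl, hy'⟩), rfl⟩ | ⟨x, y, c, hxy, hx', hy', hc, rfl⟩
    · rw [D.X_inv hxy]
      exact hx _ _ _ _ hxy hx' hy' ih
    · rw [D.X_inv hxy]
      exact hn _ _ _ hxy hy' ih
    · rw [D.hh_inv hxy hm hc]
      exact hh _ _ _ _ hxy hx' hy' (inv_ne_zero hc) ih

section Gen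

variable {J : Finset (Ix m)} {a j b : Ix m} (C : Ctx J a j b)
include C

/-- Passing between torus elements modulo the Levi subgroup. -/
lemma hh_red1 {j' y : Ix m} (hj' : j' ∈ J) (hy : y ∈ J) (h1 : y ≠ j') (h2 : y ≠ j'.swap) {e : K} (he : e ≠ 0) :
    ∃ l ∈ D.LV J, D.hh a y e = D.hh a j' e * l := by
  have hJ' := C.hJ _ hj'
  have S1 : Sh j'.swap y := ⟨h2.symm, by rw [sw_sw]; exact h1⟩
  have hμ : D.wS j'.swap y (1 : K) ∈ D.LV J := D.wS_mem_LV C.hJ hJ' hy S1 _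
  have A := D.acts_wS S1 (one_ne_zero (α := K)) C.hm
  have hsh : Sh a j' := C.sh1 hj'
  have e1 := A.hh hsh C.hm he
  have hoff : a ≠ j'.swap ∧ a ≠ y.swap ∧ a ≠ y ∧ a ≠ j'.swap.swap := by
    refine ⟨(C.ne1 hJ').symm, (C.ne1 (C.hJ _ hy)).symm, (C.ne1 hy).symm, ?_⟩
    rw [sw_sw]
    exact (C.ne1 hj').symm
  have h21 : piS j'.swap y j' = y := by simpa [sw_sw] using piS_a' S1
  rw [piS_off hoff, h21] at e1
  have hδ : (D.hh a j' e)⁻¹ * D.wS j'.swap y (1 : K) * D.hh a j' e ∈ D.LV J := by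
    rw [D.hh_inv hsh C.hm he]
    have := (D.acts_hh hsh C.hm (inv_ne_zero he)).conj_rt_diag hμ
    rwa [D.hh_inv hsh C.hm (inv_ne_zero he), inv_inv] at this
  refine ⟨_, Subgroup.mul_mem _ hδ (Subgroup.inv_mem _ hμ), ?_⟩
  rw [← e1]
  group

lemma hh_red {y : Ix m} (hy : y ∈ J) {e : K} (he : e ≠ 0) : ∃ l ∈ D.LV J, D.hh a y e = D.hh a j e * l := by
  by_cases h1 : y = j
  · subst h1
    exact ⟨1, Subgroup.one_mem _, by simp⟩
  by_cases h2 : y = j.swap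
  · subst h2
    obtain ⟨l₁, hl₁, e₁⟩ := hh_red1 (D := D) C C.hb C.hj' (fun h => C.hbj' h.symm) (sw_ne_sw C.hbj.symm) he
    obtain ⟨l₂, hl₂, e₂⟩ := hh_red1 (D := D) C C.hj C.hb C.hbj C.hbj' he
    exact ⟨l₂ * l₁, Subgroup.mul_mem _ hl₂ hl₁, by rw [e₁, e₂]; group⟩
  · exact hh_red1 (D := D) C C.hj hy h1 h2 he

lemma hh_red' {x y : Ix m} (hxy : Sh x y) (hx : TS J a.swap x) (hy : TS J a.swap y) {e : K} (he : e ≠ 0) :
    D.hh x y e ∈ D.LV J ∨ ∃ e' : K, e' ≠ 0 ∧ ∃ l ∈ D.LV J, D.hh x y e = D.hh a j e' * l := by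
  have h0 := hxy.1
  have h0' := hxy.2
  rcases hx with hx | rfl | rfl <;> rcases hy with hy | rfl | rfl
  · exact Or.inl (D.hh_mem_LV C.hJ hx hy hxy e)
  · -- `x ∈ J`, `y = ā`
    right
    rw [D.hh_symm hxy C.hm he]
    have e1 := D.hh_sw (C.sh1 (C.hJ _ hx)) C.hm he
    rw [sw_sw] at e1
    rw [e1]
    obtain ⟨l, hl, e2⟩ := hh_red (D := D) C (C.hJ _ hx) (inv_ne_zero he)
    exact ⟨_, inv_ne_zero he, l, hl, e2⟩
  · right
    simp only [sw_sw] at hxy ⊢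
    rw [D.hh_symm hxy C.hm he]
    obtain ⟨l, hl, e2⟩ := hh_red (D := D) C hx he
    exact ⟨_, he, l, hl, e2⟩
  · -- `x = ā`, `y ∈ J`
    right
    have e1 := D.hh_sw (C.sh1 (C.hJ _ hy)) C.hm he
    rw [sw_sw] at e1
    rw [e1]
    obtain ⟨l, hl, e2⟩ := hh_red (D := D) C (C.hJ _ hy) (inv_ne_zero he)
    exact ⟨_, inv_ne_zero he, l, hl, e2⟩
  · exact absurd rfl h0
  · exact absurd rfl h0'
  · right
    simp only [sw_sw] at hxy ⊢
    obtain ⟨l, hl, e2⟩ := hh_red (D := D) C hy he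
    exact ⟨_, he, l, hl, e2⟩
  · exact absurd (sw_sw _).symm h0'
  · exact absurd rfl h0

lemma ZZ_split {g : Γ} (hg : g ∈ D.ZZ J a.swap) :
    ∃ q ∈ D.QQ J a.swap, ∃ c : K, c ≠ 0 ∧ ∃ l ∈ D.LV J, g = q * D.hh a j c * l := by
  have hm := C.hm
  have hsh := C.sh
  have hQ : ∀ {l τ : Γ}, l ∈ D.LV J → τ ∈ D.QQ J a.swap → l * τ * l⁻¹ ∈ D.QQ J a.swap :=
    fun hl hτ => D.LV_conj_QQ C.hJ C.ha' hl hτ
  have hLc : ∀ {c : K} {l : Γ}, c ≠ 0 → l ∈ D.LV J → (D.hh a j c)⁻¹ * l * D.hh a j c ∈ D.LV J := by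
    intro c l hc hl
    have := (D.acts_hh hsh hm (inv_ne_zero hc)).conj_rt_diag hl
    rwa [D.hh_inv hsh hm (inv_ne_zero hc), inv_inv, ← D.hh_inv hsh hm hc] at this
  have step : ∀ {l₀ q l : Γ} {c : K}, l₀ ∈ D.LV J → q ∈ D.QQ J a.swap → c ≠ 0 → l ∈ D.LV J →
      ∃ q' ∈ D.QQ J a.swap, ∃ c' : K, c' ≠ 0 ∧ ∃ l' ∈ D.LV J, l₀ * (q * D.hh a j c * l) = q' * D.hh a j c' * l' := by
    intro l₀ q l c h0 hq hc hl
    refine ⟨l₀ * q * l₀⁻¹, hQ h0 hq, c, hc, (D.hh a j c)⁻¹ * l₀ * D.hh a j c * l,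
      Subgroup.mul_mem _ (hLc hc h0) hl, by group⟩
  refine ZZ_ind (D := D) hm (R := fun g => ∃ q ∈ D.QQ J a.swap, ∃ c : K, c ≠ 0 ∧ ∃ l ∈ D.LV J, g = q * D.hh a j c * l)
    ?_ ?_ ?_ ?_ hg
  · exact ⟨1, Subgroup.one_mem _, 1, one_ne_zero, 1, Subgroup.one_mem _, by rw [D.hh_one hsh hm]; simp⟩
  · rintro x y t g hxy hx hy ⟨q, hq, c, hc, l, hl, rfl⟩
    exact step (D.rtX hxy ⟨hx, hy⟩ t) hq hc hl
  · rintro y t g hxy hy ⟨q, hq, c, hc, l, hl, rfl⟩
    refine ⟨D.X a.swap y t * q, Subgroup.mul_mem _ (D.mem_X C.hJ C.ha' hy t) hq, c, hc, l, hl, by group⟩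
  · rintro x y e g hxy hx hy he ⟨q, hq, c, hc, l, hl, rfl⟩
    rcases hh_red' (D := D) C hxy hx hy he with h | ⟨e', he', l₀, hl₀, h⟩
    · exact step h hq hc hl
    · have hq' : D.hh x y e * q * (D.hh x y e)⁻¹ ∈ D.QQ J a.swap :=
        (D.acts_hh hxy hm he).conj_rt_diag hq
      refine ⟨_, hq', e' * c, mul_ne_zero he' hc, (D.hh a j c)⁻¹ * l₀ * D.hh a j c * l,
        Subgroup.mul_mem _ (hLc hc hl₀) hl, ?_⟩
      have e2 : D.hh x y e * D.hh a j c = D.hh a j (e' * c) * ((D.hh a j c)⁻¹ * l₀ * D.hh a j c) := by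
        rw [h, ← D.hh_mul hsh hm he' hc]
        group
      calc D.hh x y e * (q * D.hh a j c * l)
          = (D.hh x y e * q * (D.hh x y e)⁻¹) * (D.hh x y e * D.hh a j c) * l := by group
        _ = _ := by rw [e2]; group

lemma card_ZZ (hf : Finite (D.LV J)) : Finite (D.ZZ J a.swap) ∧
    Nat.card (D.ZZ J a.swap) ≤ Nat.card K ^ J.card * (Nat.card K - 1) * Nat.card (D.LV J) := by
  classical
  haveI := Fintype.ofFinite K
  obtain ⟨FT, hFT, hT⟩ := D.exists_cover_QQ C.hJ C.ha'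
  let F : Finset Γ := (FT ×ˢ (Finset.univ : Finset Kˣ)).image fun p => p.1 * D.hh a j (p.2 : K)
  have hcov : ∀ g ∈ D.ZZ J a.swap, ∃ r ∈ F, ∃ y ∈ D.LV J, g = r * y := by
    intro g hg
    obtain ⟨q, hq, c, hc, l, hl, rfl⟩ := ZZ_split C hg
    refine ⟨q * D.hh a j c, ?_, l, hl, rfl⟩
    simp only [F, Finset.mem_image, Finset.mem_product, Finset.mem_univ, and_true]
    exact ⟨(q, Units.mk0 c hc), hT q hq, rfl⟩
  have hF : F.card ≤ Nat.card K ^ J.card * (Nat.card K - 1) := by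
    refine Finset.card_image_le.trans ?_
    rw [Finset.card_product, Finset.card_univ, ← Nat.card_eq_fintype_card, Nat.card_units]
    exact Nat.mul_le_mul_right _ hFT
  obtain ⟨h1, h2⟩ := Cfsg.Agent.Lib.StN.Data.card_le_of_cover hf hcov
  exact ⟨h1, h2.trans (Nat.mul_le_mul_right _ hF)⟩

end Gen

section Base

variable {j a : Ix m} (hs : Sh a j) (hm : 3 ≤ m)
include hs

omit [Finite K] in
lemma c1 (s t : K) : Commute (D.X a j s) (D.X a j.swap t) := D.X_comm_same hs hs.sr s t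

omit [Finite K] in
lemma c2 (s t : K) : Commute (D.X a j s) (D.X a.swap j t) := by
  have := D.X_comm_same hs.symm hs.symm.sr (-s) (-t)
  rw [← D.Xsym hs, ← D.Xsym hs.sl] at this
  exact this

omit [Finite K] in
lemma c3 (s t : K) : Commute (D.X a.swap j.swap s) (D.X a j.swap t) := by
  have := D.X_comm_same hs.ss.symm hs.sr.symm (-s) (-t)
  rw [← D.Xsym hs.ss, ← D.Xsym hs.sr] at this
  exact this

omit [Finite K] in
lemma c4 (s t : K) : Commute (D.X a.swap j.swap s) (D.X a.swap j t) := D.X_comm_same hs.ss hs.sl s t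

include hm in
/-- Two commuting copies of `SL₂`. -/
lemma exists_two : ∃ ψ₁ ψ₂ : Matrix.SpecialLinearGroup (Fin 2) K →* Γ,
    (∀ t, ψ₁ (mx K (true, t)) = D.X a j t) ∧ (∀ t, ψ₁ (mx K (false, t)) = D.X a.swap j.swap (-t)) ∧
    (∀ t, ψ₁ (MW t) = D.wS a j t) ∧ (∀ t, ψ₁ (MD t) = D.hh a j t) ∧
    (∀ t, ψ₂ (mx K (true, t)) = D.X a j.swap t) ∧ (∀ t, ψ₂ (mx K (false, t)) = D.X a.swap j (-t)) ∧
    (∀ t, ψ₂ (MW t) = D.wS a j.swap t) ∧ (∀ t, ψ₂ (MD t) = D.hh a j.swap t) ∧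
    ∀ A B, Commute (ψ₁ A) (ψ₂ B) := by
  obtain ⟨ψ₁, h1, h2, h3, h4⟩ := D.exists_psi hs hm
  obtain ⟨ψ₂, h5, h6, h7, h8⟩ := D.exists_psi hs.sr hm
  rw [sw_sw] at h6
  refine ⟨ψ₁, ψ₂, h1, h2, h3, h4, h5, h6, h7, h8, comm_of_gen ψ₁ ψ₂ ?_⟩
  rintro ⟨p, s⟩ ⟨q, t⟩
  cases p <;> cases q
  · rw [h2, h6]
    exact c4 hs _ _
  · rw [h2, h5]
    exact c3 hs _ _
  · rw [h1, h6]
    exact c2 hs _ _
  · rw [h1, h5]
    exact c1 hs _ _

end Base

section Base2

variable {j a : Ix m} (hs : Sh a j) (hm : 3 ≤ m)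
include hs hm

lemma mem_pair_ne {x : Ix m} (hx : x ∈ ({j, j.swap} : Finset (Ix m))) : x ≠ a ∧ x ≠ a.swap := by
  have h1 := hs.1
  have h2 := hs.2
  simp only [Finset.mem_insert, Finset.mem_singleton] at hx
  rcases hx with rfl | rfl
  · exact ⟨h1.symm, h2⟩
  · exact ⟨ne_sw_symm h2 |> fun h => h.symm, sw_ne_sw h1.symm⟩

/-- All elements of the group of rank two in product form. -/
lemma base_forms {g : Γ} (hg : g ∈ D.LV (insert a (insert a.swap ({j, j.swap} : Finset (Ix m))))) :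
    (∃ z t : K, ∃ y ∈ D.ZZ ({j, j.swap} : Finset (Ix m)) a.swap, g = D.X a j z * D.X a j.swap t * y) ∨
    (∃ f : K, ∃ y ∈ D.ZZ ({j, j.swap} : Finset (Ix m)) a.swap, g = D.X a j.swap f * D.wS a j 1 * y) ∨
    (∃ f : K, ∃ y ∈ D.ZZ ({j, j.swap} : Finset (Ix m)) a.swap, g = D.X a j f * D.wS a j.swap 1 * y) ∨
    (∃ y ∈ D.ZZ ({j, j.swap} : Finset (Ix m)) a.swap, g = D.WW a j 1 * y) := by
  obtain ⟨ψ₁, ψ₂, h1, h2, h3, h4, h5, h6, h7, h8, hc⟩ := D.exists_two hs hm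
  have key : ∃ A B, g = ψ₁ A * ψ₂ B := by
    have hx1 : ∀ t g, (∃ A B, g = ψ₁ A * ψ₂ B) → ∃ A B, D.X a j t * g = ψ₁ A * ψ₂ B := by
      rintro t g ⟨A, B, rfl⟩
      exact ⟨mx K (true, t) * A, B, by rw [map_mul, h1]; group⟩
    have hx2 : ∀ t g, (∃ A B, g = ψ₁ A * ψ₂ B) → ∃ A B, D.X a.swap j.swap t * g = ψ₁ A * ψ₂ B := by
      rintro t g ⟨A, B, rfl⟩
      exact ⟨mx K (false, -t) * A, B, by rw [map_mul, h2, neg_neg]; group⟩
    have hx3 : ∀ t g, (∃ A B, g = ψ₁ A * ψ₂ B) → ∃ A B, D.X a j.swap t * g = ψ₁ A * ψ₂ B := by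
      rintro t g ⟨A, B, rfl⟩
      refine ⟨A, mx K (true, t) * B, ?_⟩
      rw [map_mul, h5, ← mul_assoc, ← mul_assoc, ← h5, (hc A (mx K (true, t))).eq]
    have hx4 : ∀ t g, (∃ A B, g = ψ₁ A * ψ₂ B) → ∃ A B, D.X a.swap j t * g = ψ₁ A * ψ₂ B := by
      rintro t g ⟨A, B, rfl⟩
      refine ⟨A, mx K (false, -t) * B, ?_⟩
      have e : D.X a.swap j t = ψ₂ (mx K (false, -t)) := by rw [h6, neg_neg]
      rw [map_mul, e, ← mul_assoc, ← mul_assoc, (hc A (mx K (false, -t))).eq]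
    refine D.rt_ind (R := fun g => ∃ A B, g = ψ₁ A * ψ₂ B) ⟨1, 1, by simp⟩ ?_ hg
    rintro x y t g hxy ⟨hx, hy⟩ ih
    simp only [Finset.mem_insert, Finset.mem_singleton] at hx hy
    have h0 := hxy.1
    have h0' := hxy.2
    rcases hx with rfl | rfl | rfl | rfl <;> rcases hy with rfl | rfl | rfl | rfl
    · exact absurd rfl h0
    · exact absurd rfl h0'
    · exact hx1 _ _ ih
    · exact hx3 _ _ ih
    · exact absurd (sw_sw _).symm h0'
    · exact absurd rfl h0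
    · exact hx4 _ _ ih
    · exact hx2 _ _ ih
    · rw [D.Xsym hxy]
      exact hx1 _ _ ih
    · rw [D.Xsym hxy]
      exact hx4 _ _ ih
    · exact absurd rfl h0
    · exact absurd rfl h0'
    · rw [D.Xsym hxy]
      exact hx3 _ _ ih
    · rw [D.Xsym hxy]
      exact hx2 _ _ ih
    · exact absurd (sw_sw _).symm h0'
    · exact absurd rfl h0
  obtain ⟨A, B, rfl⟩ := key
  set J₀ : Finset (Ix m) := {j, j.swap} with hJ₀
  have hQ : ∀ {x : Ix m} (t : K), x ∈ J₀ → D.X a.swap x t ∈ D.ZZ J₀ a.swap := by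
    intro x t hx
    have hne := mem_pair_ne hs hm hx
    exact Subgroup.subset_closure (Or.inl ⟨a.swap, x, t, ⟨hne.2.symm, by rw [sw_sw]; exact hne.1⟩, Or.inr ⟨rfl, hx⟩, rfl⟩)
  have hj₁ : j ∈ J₀ := by simp [hJ₀]
  have hj₂ : j.swap ∈ J₀ := by simp [hJ₀]
  have hT : ∀ {x : Ix m} {c : K}, x ∈ J₀ → Sh a x → c ≠ 0 → D.hh a x c ∈ D.ZZ J₀ a.swap := by
    intro x c hx hax hc
    exact D.TOR_le_ZZ (D.hh_mem_TOR hax (Or.inr (Or.inr (by rw [sw_sw]))) (Or.inl hx) hc)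
  -- splitting of the two factors
  have dec1 : ∃ M N, A = M * N ∧ ψ₁ N ∈ D.ZZ J₀ a.swap ∧ ((∃ z, M = mx K (true, z)) ∨ M = MW 1) := by
    rcases decomp A with ⟨z, c, v, hc, rfl⟩ | ⟨c, v, hc, rfl⟩
    · refine ⟨mx K (true, z), MD c * mx K (false, v), by group, ?_, Or.inl ⟨z, rfl⟩⟩
      rw [map_mul, h4, h2]
      exact Subgroup.mul_mem _ (hT hj₁ hs hc) (hQ _ hj₂)
    · refine ⟨MW 1, MD c⁻¹ * mx K (false, v), ?_, ?_, Or.inr rfl⟩
      · rw [← mul_assoc, I10 (inv_ne_zero hc) one_ne_zero]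
        simp
      · rw [map_mul, h4, h2]
        exact Subgroup.mul_mem _ (hT hj₁ hs (inv_ne_zero hc)) (hQ _ hj₂)
  have dec2 : ∃ M N, B = M * N ∧ ψ₂ N ∈ D.ZZ J₀ a.swap ∧ ((∃ z, M = mx K (true, z)) ∨ M = MW 1) := by
    rcases decomp B with ⟨z, c, v, hc, rfl⟩ | ⟨c, v, hc, rfl⟩
    · refine ⟨mx K (true, z), MD c * mx K (false, v), by group, ?_, Or.inl ⟨z, rfl⟩⟩
      rw [map_mul, h8, h6]
      exact Subgroup.mul_mem _ (hT hj₂ hs.sr hc) (hQ _ hj₁)
    · refine ⟨MW 1, MD c⁻¹ * mx K (false, v), ?_, ?_, Or.inr rfl⟩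
      · rw [← mul_assoc, I10 (inv_ne_zero hc) one_ne_zero]
        simp
      · rw [map_mul, h8, h6]
        exact Subgroup.mul_mem _ (hT hj₂ hs.sr (inv_ne_zero hc)) (hQ _ hj₁)
  obtain ⟨M₁, N₁, rfl, hN₁, hM₁⟩ := dec1
  obtain ⟨M₂, N₂, rfl, hN₂, hM₂⟩ := dec2
  have hZ := Subgroup.mul_mem _ hN₁ hN₂
  have e : ψ₁ (M₁ * N₁) * ψ₂ (M₂ * N₂) = ψ₁ M₁ * ψ₂ M₂ * (ψ₁ N₁ * ψ₂ N₂) := by
    rw [map_mul, map_mul]
    calc ψ₁ M₁ * ψ₁ N₁ * (ψ₂ M₂ * ψ₂ N₂) = ψ₁ M₁ * (ψ₁ N₁ * ψ₂ M₂) * ψ₂ N₂ := by group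
      _ = ψ₁ M₁ * (ψ₂ M₂ * ψ₁ N₁) * ψ₂ N₂ := by rw [(hc N₁ M₂).eq]
      _ = _ := by group
  rw [e]
  rcases hM₁ with ⟨z, rfl⟩ | rfl <;> rcases hM₂ with ⟨z', rfl⟩ | rfl
  · exact Or.inl ⟨z, z', _, hZ, by rw [h1, h5]⟩
  · exact Or.inr (Or.inr (Or.inl ⟨z, _, hZ, by rw [h1, h7]⟩))
  · refine Or.inr (Or.inl ⟨z', _, hZ, ?_⟩)
    rw [h3, h5, ← h5, ← h3, (hc (MW 1) (mx K (true, z'))).eq]
  · exact Or.inr (Or.inr (Or.inr ⟨_, hZ, by rw [h3, h7, WW]⟩))

/-- The cosets in rank two. -/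
lemma base_cover : ∃ F : Finset Γ, F.card ≤ (Nat.card K + 1) ^ 2 ∧
    ∀ g ∈ D.LV (insert a (insert a.swap ({j, j.swap} : Finset (Ix m)))),
      ∃ r ∈ F, ∃ y ∈ D.ZZ ({j, j.swap} : Finset (Ix m)) a.swap, g = r * y := by
  classical
  haveI := Fintype.ofFinite K
  let F1 : Finset Γ := ((Finset.univ : Finset K) ×ˢ (Finset.univ : Finset K)).image fun p => D.X a j p.1 * D.X a j.swap p.2
  let F2 : Finset Γ := (Finset.univ : Finset K).image fun f => D.X a j.swap f * D.wS a j 1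
  let F3 : Finset Γ := (Finset.univ : Finset K).image fun f => D.X a j f * D.wS a j.swap 1
  refine ⟨F1 ∪ (F2 ∪ (F3 ∪ {D.WW a j 1})), ?_, ?_⟩
  · have c1 : F1.card ≤ Nat.card K * Nat.card K := by
      refine Finset.card_image_le.trans ?_
      rw [Finset.card_product, Finset.card_univ, ← Nat.card_eq_fintype_card]
    have c2 : F2.card ≤ Nat.card K := by
      refine Finset.card_image_le.trans ?_
      rw [Finset.card_univ, ← Nat.card_eq_fintype_card]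
    have c3 : F3.card ≤ Nat.card K := by
      refine Finset.card_image_le.trans ?_
      rw [Finset.card_univ, ← Nat.card_eq_fintype_card]
    have c4 : ({D.WW a j 1} : Finset Γ).card ≤ 1 := by simp
    have h1 := Finset.card_union_le F1 (F2 ∪ (F3 ∪ {D.WW a j 1}))
    have h2 := Finset.card_union_le F2 (F3 ∪ {D.WW a j 1})
    have h3 := Finset.card_union_le F3 ({D.WW a j 1} : Finset Γ)
    have e : (Nat.card K + 1) ^ 2 = Nat.card K * Nat.card K + Nat.card K + Nat.card K + 1 := by ring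
    omega
  · intro g hg
    rcases base_forms hs hm hg with ⟨z, t, y, hy, rfl⟩ | ⟨f, y, hy, rfl⟩ | ⟨f, y, hy, rfl⟩ | ⟨y, hy, rfl⟩
    · refine ⟨_, Finset.mem_union_left _ ?_, y, hy, rfl⟩
      simp only [F1, Finset.mem_image, Finset.mem_product, Finset.mem_univ, and_true]
      exact ⟨(z, t), trivial, rfl⟩
    · refine ⟨_, Finset.mem_union_right _ (Finset.mem_union_left _ ?_), y, hy, rfl⟩
      simp only [F2, Finset.mem_image, Finset.mem_univ, true_and]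
      exact ⟨f, rfl⟩
    · refine ⟨_, Finset.mem_union_right _ (Finset.mem_union_right _ (Finset.mem_union_left _ ?_)), y, hy, rfl⟩
      simp only [F3, Finset.mem_image, Finset.mem_univ, true_and]
      exact ⟨f, rfl⟩
    · exact ⟨_, Finset.mem_union_right _ (Finset.mem_union_right _ (Finset.mem_union_right _ (by simp))), y, hy, rfl⟩

/-- The homomorphism from the torus of rank two. -/
noncomputable def torHom (D : Data m K Γ) (hs : Sh a j) (hm : 3 ≤ m) : Kˣ × Kˣ →* Γ :=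
  MonoidHom.mk' (fun p => D.hh a j (p.1 : K) * D.hh a j.swap (p.2 : K)) (by
    obtain ⟨ψ₁, ψ₂, -, -, -, h4, -, -, -, h8, hc⟩ := D.exists_two hs hm
    rintro ⟨c, d⟩ ⟨c', d'⟩
    simp only [Prod.fst_mul, Prod.snd_mul, Units.val_mul]
    rw [← D.hh_mul hs hm c.ne_zero c'.ne_zero, ← D.hh_mul hs.sr hm d.ne_zero d'.ne_zero]
    have := (hc (MD (c' : K)) (MD (d : K))).eq
    rw [h4, h8] at this
    calc D.hh a j c * D.hh a j c' * (D.hh a j.swap d * D.hh a j.swap d')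
        = D.hh a j c * (D.hh a j c' * D.hh a j.swap d) * D.hh a j.swap d' := by group
      _ = D.hh a j c * (D.hh a j.swap d * D.hh a j c') * D.hh a j.swap d' := by rw [this]
      _ = _ := by group)

lemma TOR_le_range : D.TOR (TS ({j, j.swap} : Finset (Ix m)) a.swap) ≤ (torHom D hs hm).range := by
  have h1 : ∀ {c : K}, c ≠ 0 → D.hh a j c ∈ (torHom D hs hm).range := by
    intro c hc
    refine ⟨(Units.mk0 c hc, 1), ?_⟩
    show D.hh a j c * D.hh a j.swap ((1 : Kˣ) : K) = _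
    rw [Units.val_one, D.hh_one hs.sr hm, mul_one]
  have h2 : ∀ {c : K}, c ≠ 0 → D.hh a j.swap c ∈ (torHom D hs hm).range := by
    intro c hc
    refine ⟨(1, Units.mk0 c hc), ?_⟩
    show D.hh a j ((1 : Kˣ) : K) * D.hh a j.swap c = _
    rw [Units.val_one, D.hh_one hs hm, one_mul]
  rw [TOR, Subgroup.closure_le]
  rintro _ ⟨x, y, c, hxy, hx, hy, hc, rfl⟩
  have h0 := hxy.1
  have h0' := hxy.2
  have hcases : ∀ {x : Ix m}, TS ({j, j.swap} : Finset (Ix m)) a.swap x → x = j ∨ x = j.swap ∨ x = a.swap ∨ x = a := by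
    rintro x (h | rfl | rfl)
    · simp only [Finset.mem_insert, Finset.mem_singleton] at h
      tauto
    · tauto
    · rw [sw_sw]
      tauto
  have e3 : ∀ {c : K}, c ≠ 0 → D.hh a.swap j c = D.hh a j.swap c⁻¹ := by
    intro c hc
    have := D.hh_sw hs.sr hm hc
    rwa [sw_sw] at this
  have e4 : ∀ {c : K}, c ≠ 0 → D.hh a.swap j.swap c = D.hh a j c⁻¹ := fun hc => D.hh_sw hs hm hc
  rw [SetLike.mem_coe]
  rcases hcases hx with rfl | rfl | rfl | rfl <;> rcases hcases hy with rfl | rfl | rfl | rfl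
  · exact absurd rfl h0
  · exact absurd rfl h0'
  · rw [D.hh_symm hxy hm hc, e3 hc]
    exact h2 (inv_ne_zero hc)
  · rw [D.hh_symm hxy hm hc]
    exact h1 hc
  · exact absurd (by rw [sw_sw]) h0'
  · exact absurd rfl h0
  · rw [D.hh_symm hxy hm hc, e4 hc]
    exact h1 (inv_ne_zero hc)
  · rw [D.hh_symm hxy hm hc]
    exact h2 hc
  · rw [e3 hc]
    exact h2 (inv_ne_zero hc)
  · rw [e4 hc]
    exact h1 (inv_ne_zero hc)
  · exact absurd rfl h0
  · exact absurd (by rw [sw_sw]) h0'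
  · exact h1 hc
  · exact h2 hc
  · exact absurd rfl h0'
  · exact absurd rfl h0

lemma card_TOR2 (hz : D.hh a j (-1) * D.hh a j.swap (-1) = 1) :
    Finite (D.TOR (TS ({j, j.swap} : Finset (Ix m)) a.swap)) ∧
    gK K * Nat.card (D.TOR (TS ({j, j.swap} : Finset (Ix m)) a.swap)) ≤ (Nat.card K - 1) ^ 2 := by
  classical
  have hfinU : Finite Kˣ := inferInstance
  have hfinR : Finite (torHom D hs hm).range := by
    haveI : Finite (Kˣ × Kˣ) := inferInstance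
    exact Set.finite_range _ |>.to_subtype
  have hle := TOR_le_range (D := D) hs hm
  have hfinT : Finite (D.TOR (TS ({j, j.swap} : Finset (Ix m)) a.swap)) := Finite.of_injective _ (Subgroup.inclusion_injective hle)
  have hcardle : Nat.card (D.TOR (TS ({j, j.swap} : Finset (Ix m)) a.swap)) ≤ Nat.card (torHom D hs hm).range :=
    Nat.card_le_card_of_injective _ (Subgroup.inclusion_injective hle)
  have hker : Nat.card (torHom D hs hm).ker * Nat.card (torHom D hs hm).range = (Nat.card K - 1) ^ 2 := by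
    rw [← Subgroup.index_ker, Subgroup.card_mul_index, Nat.card_prod, Nat.card_units, sq]
  refine ⟨hfinT, ?_⟩
  rw [← hker]
  unfold gK
  by_cases h1 : (-1 : K) = 1
  · simp only [h1, if_true, one_mul]
    haveI : Finite (Kˣ × Kˣ) := inferInstance
    have : 1 ≤ Nat.card (torHom D hs hm).ker := Nat.card_pos
    nlinarith
  · simp only [h1, if_false]
    haveI : Finite (Kˣ × Kˣ) := inferInstance
    have hm1 : (-1 : Kˣ) ≠ 1 := by
      intro e
      apply h1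
      have := congrArg Units.val e
      simpa using this
    let u : (torHom D hs hm).ker := ⟨(-1, -1), by
      rw [MonoidHom.mem_ker]
      show D.hh a j (((-1 : Kˣ) : K)) * D.hh a j.swap (((-1 : Kˣ) : K)) = 1
      simpa using hz⟩
    have hu : u ≠ 1 := by
      intro e
      have := congrArg (fun x : (torHom D hs hm).ker => (x : Kˣ × Kˣ).1) e
      exact hm1 this
    have h2 : 1 < Nat.card (torHom D hs hm).ker := by
      rw [Finite.one_lt_card_iff_nontrivial]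
      exact ⟨⟨u, 1, hu⟩⟩
    have h3 : 2 * Nat.card (D.TOR (TS ({j, j.swap} : Finset (Ix m)) a.swap)) ≤ 2 * Nat.card (torHom D hs hm).range :=
      Nat.mul_le_mul_left _ hcardle
    exact h3.trans (Nat.mul_le_mul_right _ h2)

lemma card_ZZ2 (hz : D.hh a j (-1) * D.hh a j.swap (-1) = 1) :
    Finite (D.ZZ ({j, j.swap} : Finset (Ix m)) a.swap) ∧
    gK K * Nat.card (D.ZZ ({j, j.swap} : Finset (Ix m)) a.swap) ≤ Nat.card K ^ 2 * (Nat.card K - 1) ^ 2 := by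
  classical
  set J₀ : Finset (Ix m) := {j, j.swap} with hJ₀
  have hjj : j ≠ j.swap := (sw_ne j).symm
  have hcard : J₀.card = 2 := by rw [hJ₀, Finset.card_pair hjj]
  have hJ : ∀ x ∈ J₀, x.swap ∈ J₀ := by
    intro x hx
    simp only [hJ₀, Finset.mem_insert, Finset.mem_singleton] at hx ⊢
    rcases hx with rfl | rfl
    · exact Or.inr rfl
    · exact Or.inl (sw_sw _)
  have ha : a.swap ∉ J₀ := by
    intro h
    exact (mem_pair_ne hs hm h).2 rfl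
  obtain ⟨hT1, hT2⟩ := card_TOR2 (D := D) hs hm hz
  obtain ⟨FT, hFT, hT⟩ := D.exists_cover_QQ hJ ha
  rw [hcard] at hFT
  have hcov : ∀ g ∈ D.ZZ J₀ a.swap, ∃ r ∈ FT, ∃ y ∈ D.TOR (TS J₀ a.swap), g = r * y := by
    intro g hg
    have key : ∃ q ∈ D.QQ J₀ a.swap, ∃ y ∈ D.TOR (TS J₀ a.swap), g = q * y := by
      refine ZZ_ind (D := D) hm (R := fun g => ∃ q ∈ D.QQ J₀ a.swap, ∃ y ∈ D.TOR (TS J₀ a.swap), g = q * y) ?_ ?_ ?_ ?_ hg
      · exact ⟨1, Subgroup.one_mem _, 1, Subgroup.one_mem _, by simp⟩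
      · rintro x y t g hxy hx hy _
        simp only [hJ₀, Finset.mem_insert, Finset.mem_singleton] at hx hy
        have h0 := hxy.1
        have h0' := hxy.2
        rcases hx with rfl | rfl <;> rcases hy with rfl | rfl
        · exact absurd rfl h0
        · exact absurd rfl h0'
        · exact absurd (by rw [sw_sw]) h0'
        · exact absurd rfl h0
      · rintro y t g hxy hy ⟨q, hq, δ, hδ, rfl⟩
        exact ⟨D.X a.swap y t * q, Subgroup.mul_mem _ (D.rtX hxy ⟨rfl, hy⟩ t) hq, δ, hδ, by group⟩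
      · rintro x y c g hxy hx hy hc ⟨q, hq, δ, hδ, rfl⟩
        exact ⟨D.hh x y c * q * (D.hh x y c)⁻¹, (D.acts_hh hxy hm hc).conj_rt_diag hq, D.hh x y c * δ,
          Subgroup.mul_mem _ (D.hh_mem_TOR hxy hx hy hc) hδ, by group⟩
    obtain ⟨q, hq, y, hy, rfl⟩ := key
    exact ⟨q, hT q hq, y, hy, rfl⟩
  obtain ⟨h1, h2⟩ := Cfsg.Agent.Lib.StN.Data.card_le_of_cover hT1 hcov
  refine ⟨h1, ?_⟩
  calc gK K * Nat.card (D.ZZ J₀ a.swap) ≤ gK K * (FT.card * Nat.card (D.TOR (TS J₀ a.swap))) := Nat.mul_le_mul_left _ h2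
    _ = FT.card * (gK K * Nat.card (D.TOR (TS J₀ a.swap))) := by ring
    _ ≤ _ := Nat.mul_le_mul hFT hT2

end Base2

end Data

end Cfsg.Agent.Lib.DnN
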