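import Mathlib
import Cfsg.Agent.Lib.DnE

/-!
# Steinberg relations of type `D_m`: the main induction
-/

set_option autoImplicit false
set_option linter.unusedVariables false
set_option linter.unusedSectionVars false

namespace Cfsg.Agent.Lib.DnN

open Cfsg.Agent.Lib.SpN (Ix Sh sw_sw sw_ne sw_inj sw_ne_sw ne_sw_symm)

namespace Data

variable {m : ℕ} {K Γ : Type*} [Field K] [Group Γ] {D : Data m K Γ} [Finite K]

lemma ins_Jp {J : Finset (Ix m)} {j : Ix m} (hj : j ∈ J) (hj' : j.swap ∈ J) :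
    insert j.swap (insert j.swap.swap (Jp J j)) = J := by
  ext x
  simp only [sw_sw, Finset.mem_insert, mem_Jp]
  constructor
  · rintro (rfl | rfl | h)
    · exact hj'
    · exact hj
    · exact h.1
  · intro h
    by_cases h1 : x = j.swap
    · exact Or.inl h1
    · by_cases h2 : x = j
      · exact Or.inr (Or.inl h2)
      · exact Or.inr (Or.inr ⟨h, h2, h1⟩)

lemma card_Jp {J : Finset (Ix m)} {j : Ix m} (hj : j ∈ J) (hj' : j.swap ∈ J) :
    (Jp J j).card + 2 = J.card := by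
  have h1 : j.swap ∈ J.erase j := Finset.mem_erase.2 ⟨sw_ne j, hj'⟩
  have h2 := Finset.card_erase_add_one h1
  have h3 := Finset.card_erase_add_one hj
  simp only [Jp]
  omega

lemma Jp_sw {J : Finset (Ix m)} {j : Ix m} (hJ : ∀ x ∈ J, x.swap ∈ J) {x : Ix m} (hx : x ∈ Jp J j) :
    x.swap ∈ Jp J j := by
  obtain ⟨h1, h2, h3⟩ := mem_Jp.1 hx
  refine mem_Jp.2 ⟨hJ _ h1, ?_, sw_ne_sw h2⟩
  rintro rfl
  exact h3 (sw_sw x).symm

/-- The spin kernel relation. -/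
def Zz (D : Data m K Γ) : Prop :=
  ∀ {y x : Ix m}, Sh y x → D.hh y x (-1) * D.hh y.swap x (-1) = 1

lemma zz_form (hm : 3 ≤ m) (hz : Zz D) {a j : Ix m} (hs : Sh a j) :
    D.hh a j (-1) * D.hh a j.swap (-1) = 1 := by
  have h := hz hs
  have e := D.hh_sw hs.sr hm (neg_ne_zero.2 (one_ne_zero (α := K)))
  rw [sw_sw] at e
  rw [e] at h
  simpa using h

/-- One level up, in the general case. -/
lemma level_up {J : Finset (Ix m)} {j b a : Ix m} (hm : 3 ≤ m) (hJ : ∀ x ∈ J, x.swap ∈ J) (hj : j ∈ J)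
    (hb : b ∈ Jp J j) (hI : IHyp D J j b) {R : Finset Γ}
    (hR : ∀ g ∈ D.LV J, ∃ r ∈ R, ∃ h ∈ D.ZZ (Jp J j) j, g = r * h) (ha : a ∉ J) :
    (∀ g ∈ D.LV (insert a (insert a.swap J)),
      Y1 D J a a.swap g ∨ Y3 D J a a.swap b g ∨ ∃ j₂ ∈ J, Y2 D J a a.swap j₂ g) ∧
    ∃ F : Finset Γ, F.card ≤ Nat.card K ^ J.card + R.card * Nat.card K + 1 ∧
      ∀ g ∈ D.LV (insert a (insert a.swap J)), ∃ r ∈ F, ∃ y ∈ D.ZZ J a.swap, g = r * y := by
  obtain ⟨h1, h2, h3⟩ := mem_Jp.1 hb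
  have C : Ctx J a j b := ⟨hJ, ha, hj, h1, h2, h3, hm⟩
  refine ⟨?_, step_cover C hI hR⟩
  intro g hg
  rcases Y_all C hI hg with h | h | h
  · exact Or.inl h
  · exact Or.inr (Or.inl h)
  · exact Or.inr (Or.inr ⟨j, hj, h⟩)

/-- The rank two case in the form of the hypothesis. -/
lemma base_level {J : Finset (Ix m)} {j : Ix m} (hm : 3 ≤ m) (hz : Zz D) (hJ : ∀ x ∈ J, x.swap ∈ J)
    (hcard : J.card = 4) (hj : j ∈ J) :
    ∃ y ∈ Jp J j, IHyp D J j y ∧ (Finite (D.LV J) ∧ gK K * Nat.card (D.LV J) ≤ NG (Nat.card K) 0) ∧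
      ∃ F : Finset Γ, F.card ≤ PP (Nat.card K) 0 ∧
        ∀ g ∈ D.LV J, ∃ r ∈ F, ∃ h ∈ D.ZZ (Jp J j) j, g = r * h := by
  classical
  have hj' := hJ _ hj
  have hc' : (Jp J j).card = 2 := by
    have := card_Jp hj hj'
    omega
  obtain ⟨y, hy⟩ : (Jp J j).Nonempty := Finset.card_pos.1 (by omega)
  have hy' : y.swap ∈ Jp J j := Jp_sw hJ hy
  have hJ₀ : Jp J j = {y, y.swap} := by
    symm
    apply Finset.eq_of_subset_of_card_le
    · intro x hx
      simp only [Finset.mem_insert, Finset.mem_singleton] at hx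
      rcases hx with rfl | rfl
      · exact hy
      · exact hy'
    · rw [hc', Finset.card_pair (sw_ne y).symm]
  obtain ⟨h1, h2, h3⟩ := mem_Jp.1 hy
  have hs : Sh j.swap y := ⟨h3.symm, by rw [sw_sw]; exact h2⟩
  have hins := ins_Jp hj hj'
  rw [hJ₀] at hins
  have hZ : D.ZZ ({y, y.swap} : Finset (Ix m)) j.swap.swap = D.ZZ (Jp J j) j := by
    rw [sw_sw, hJ₀]
  have hzz := zz_form hm hz hs
  obtain ⟨F, hF, hcov⟩ := base_cover (D := D) hs hm
  rw [hins, hZ] at hcov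
  obtain ⟨hf, hc⟩ := card_ZZ2 (D := D) hs hm hzz
  rw [hZ] at hf hc
  obtain ⟨hLf, hLc⟩ := Cfsg.Agent.Lib.StN.Data.card_le_of_cover hf hcov
  refine ⟨y, hy, ?_, ⟨hLf, ?_⟩, F, hF, hcov⟩
  · -- the hypothesis
    intro l hl
    have h₀ := hl
    rw [← hins] at h₀
    have hYy : y ∈ Jp J j := hy
    have hYy' : y.swap ∈ Jp J j := hy'
    have hnm : j.swap ∉ Jp J j := fun h => (mem_Jp.1 h).2.2 rfl
    have hJ' : ∀ x ∈ Jp J j, x.swap ∈ Jp J j := fun x hx => Jp_sw hJ hx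
    rcases base_forms hs hm h₀ with ⟨z, t, w, hw, e⟩ | ⟨f, w, hw, e⟩ | ⟨f, w, hw, e⟩ | ⟨w, hw, e⟩
    · rw [hZ] at hw
      exact Or.inl ⟨_, Subgroup.mul_mem _ (D.mem_X hJ' hnm hYy z) (D.mem_X hJ' hnm hYy' t), w, hw, e⟩
    · rw [hZ] at hw
      exact Or.inr (Or.inr ⟨y, hYy, 1, Subgroup.one_mem _, f, w, hw, by rw [e, one_mul]⟩)
    · rw [hZ] at hw
      refine Or.inr (Or.inr ⟨y.swap, hYy', 1, Subgroup.one_mem _, f, w, hw, ?_⟩)
      rw [e, sw_sw, one_mul]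
    · rw [hZ] at hw
      exact Or.inr (Or.inl ⟨w, hw, e⟩)
  · calc gK K * Nat.card (D.LV J) ≤ gK K * (F.card * Nat.card (D.ZZ (Jp J j) j)) := Nat.mul_le_mul_left _ hLc
      _ = F.card * (gK K * Nat.card (D.ZZ (Jp J j) j)) := by ring
      _ ≤ (Nat.card K + 1) ^ 2 * (Nat.card K ^ 2 * (Nat.card K - 1) ^ 2) := Nat.mul_le_mul hF hc

/-- The main induction. -/
theorem main_ind (hm : 3 ≤ m) (hz : Zz D) : ∀ (k : ℕ) (J : Finset (Ix m)), J.card = 2 * (k + 2) →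
    (∀ x ∈ J, x.swap ∈ J) →
    ∀ j ∈ J, ∃ y ∈ Jp J j, IHyp D J j y ∧ (Finite (D.LV J) ∧ gK K * Nat.card (D.LV J) ≤ NG (Nat.card K) k) ∧
      ∃ F : Finset Γ, F.card ≤ PP (Nat.card K) k ∧
        ∀ g ∈ D.LV J, ∃ r ∈ F, ∃ h ∈ D.ZZ (Jp J j) j, g = r * h := by
  intro k
  induction k with
  | zero =>
    intro J hcard hJ j hj
    exact base_level hm hz hJ (by omega) hj
  | succ k ih =>
    intro J hcard hJ j hj
    have hj' := hJ _ hj
    have hc' : (Jp J j).card = 2 * (k + 2) := by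
      have := card_Jp hj hj'
      omega
    have hJ' : ∀ x ∈ Jp J j, x.swap ∈ Jp J j := fun x hx => Jp_sw hJ hx
    obtain ⟨j', hj'm⟩ : (Jp J j).Nonempty := Finset.card_pos.1 (by omega)
    obtain ⟨y, hy, hI, ⟨hfin, hcd⟩, R, hR, hcov⟩ := ih (Jp J j) hc' hJ' j' hj'm
    have hnm : j.swap ∉ Jp J j := fun h => (mem_Jp.1 h).2.2 rfl
    obtain ⟨hY, F, hF, hFc⟩ := level_up (a := j.swap) hm hJ' hj'm hy hI hcov hnm
    rw [ins_Jp hj hj'] at hY hFc
    simp only [sw_sw] at hY hFc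
    have hy0 : y ∈ Jp J j := (mem_Jp.1 hy).1
    have hC : Ctx (Jp J j) j.swap j' y :=
      ⟨hJ', hnm, hj'm, hy0, (mem_Jp.1 hy).2.1, (mem_Jp.1 hy).2.2, hm⟩
    obtain ⟨hZf, hZc⟩ := card_ZZ (D := D) hC hfin
    rw [sw_sw] at hZf hZc
    obtain ⟨hLf, hLc⟩ := Cfsg.Agent.Lib.StN.Data.card_le_of_cover hZf hFc
    refine ⟨y, mem_Jp.2 ⟨(mem_Jp.1 hy0).1, (mem_Jp.1 hy0).2.1, (mem_Jp.1 hy0).2.2⟩, hY, ⟨hLf, ?_⟩, F, ?_, hFc⟩
    · have hFPP : F.card ≤ PP (Nat.card K) (k + 1) := by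
        refine hF.trans ?_
        rw [hc', PP]
        exact Nat.add_le_add_right (Nat.add_le_add_left (Nat.mul_le_mul_right _ hR) _) _
      calc gK K * Nat.card (D.LV J) ≤ gK K * (F.card * Nat.card (D.ZZ (Jp J j) j)) := Nat.mul_le_mul_left _ hLc
        _ ≤ gK K * (F.card * (Nat.card K ^ (Jp J j).card * (Nat.card K - 1) * Nat.card (D.LV (Jp J j)))) :=
            Nat.mul_le_mul_left _ (Nat.mul_le_mul_left _ hZc)
        _ = F.card * (Nat.card K ^ (Jp J j).card * (Nat.card K - 1) * (gK K * Nat.card (D.LV (Jp J j)))) := by ring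
        _ ≤ PP (Nat.card K) (k + 1) * (Nat.card K ^ (2 * (k + 2)) * (Nat.card K - 1) * NG (Nat.card K) k) := by
            rw [hc']
            exact Nat.mul_le_mul hFPP (Nat.mul_le_mul_left _ hcd)
        _ = _ := by rw [NG]
    · refine hF.trans ?_
      rw [hc', PP]
      exact Nat.add_le_add_right (Nat.add_le_add_left (Nat.mul_le_mul_right _ hR) _) _

/-- The order bound. -/
theorem card_LV_univ {k : ℕ} (hm : m = k + 2) (hm3 : 3 ≤ m) (hz : Zz D) :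
    Finite (D.LV (Finset.univ : Finset (Ix m))) ∧
      gK K * Nat.card (D.LV (Finset.univ : Finset (Ix m))) ≤ NG (Nat.card K) k := by
  subst hm
  obtain ⟨y, -, -, h, -⟩ := main_ind (D := D) hm3 hz k Finset.univ (by simp [Finset.card_univ]; ring)
    (fun _ _ => Finset.mem_univ _) (Sum.inl ⟨0, by omega⟩) (Finset.mem_univ _)
  exact h

end Data

end Cfsg.Agent.Lib.DnN
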