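import Mathlib
import Cfsg.Agent.Lib.DnF
import Cfsg.Agent.Lib.OrthoFinal
import Cfsg.Agent.Lib.OrthoCardFinal
import Cfsg.Agent.Lib.PgoClass

/-!
# The model of the Steinberg relations of type `D_m`: root elements of `O⁺_{2m}`
-/

set_option autoImplicit false
set_option linter.unusedVariables false
set_option linter.unusedSectionVars false

namespace Cfsg.Agent.Lib.DnN

open QuadraticMap Cfsg.Agent.Lib.OrthoBasic Cfsg.Agent.Lib.OrthoSiegel Cfsg.Agent.Lib.OrthoGen
  Cfsg.Agent.Lib.OrthoCount Cfsg.Agent.Lib.OrthoOrder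
open Cfsg.Agent.Lib.SpN (Ix Sh sw_sw sw_ne sw_inj sw_ne_sw ne_sw_symm)

section General

variable {F V : Type*} [Field F] [AddCommGroup V] [Module F V] [FiniteDimensional F V]
  {Q : QuadraticForm F V} (hQ : Nondeg Q)

/-- A totally singular pair. -/
structure Good (Q : QuadraticForm F V) (v w : V) : Prop where
  qv : Q v = 0
  qw : Q w = 0
  p : polar Q v w = 0

lemma Good.symm {v w : V} (h : Good Q v w) : Good Q w v :=
  ⟨h.qw, h.qv, by rw [polar_comm]; exact h.p⟩

open Classical in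
/-- The root element of a totally singular pair. -/
noncomputable def EE (v w : V) (t : F) : OG Q :=
  if h : Good Q v w then siegel hQ (e := v) (y := (-t) • w) h.qv (by rw [polar_smul_r, h.p, mul_zero]) else 1

lemma EE_apply {v w : V} (h : Good Q v w) (t : F) (x : V) :
    ((EE hQ v w t : OG Q) : V ≃ₗ[F] V) x = x + t • (polar Q x w • v - polar Q x v • w) := by
  rw [EE, dif_pos h, siegel_apply, siegelLin_apply, polar_smul_r, Q_smul, h.qw]
  module

lemma EE_isSiegel {v w : V} (h : Good Q v w) (t : F) : IsSiegel (EE hQ v w t) v ((-t) • w) := by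
  rw [EE, dif_pos h]
  exact siegel_isSiegel _ _ _

lemma EE_mem {v w : V} (h : Good Q v w) (t : F) : EE hQ v w t ∈ siegelE Q := (EE_isSiegel hQ h t).mem

lemma EE_mul_apply {v w v' w' : V} (h : Good Q v w) (h' : Good Q v' w')
    (p1 : polar Q v v' = 0) (p2 : polar Q v w' = 0) (p3 : polar Q w v' = 0) (p4 : polar Q w w' = 0)
    (t u : F) (x : V) :
    ((EE hQ v w t * EE hQ v' w' u : OG Q) : V ≃ₗ[F] V) x =
      x + t • (polar Q x w • v - polar Q x v • w) + u • (polar Q x w' • v' - polar Q x v' • w') := by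
  rw [Subgroup.coe_mul, LinearEquiv.mul_apply, EE_apply hQ h', EE_apply hQ h]
  have e1 : polar Q v' v = 0 := by rw [polar_comm]; exact p1
  have e2 : polar Q w' v = 0 := by rw [polar_comm]; exact p2
  have e3 : polar Q v' w = 0 := by rw [polar_comm]; exact p3
  have e4 : polar Q w' w = 0 := by rw [polar_comm]; exact p4
  simp only [polar_add_left, polar_smul_l, polar_sub_left, e1, e2, e3, e4]
  module

lemma EE_comm {v w v' w' : V} (h : Good Q v w) (h' : Good Q v' w')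
    (p1 : polar Q v v' = 0) (p2 : polar Q v w' = 0) (p3 : polar Q w v' = 0) (p4 : polar Q w w' = 0)
    (t u : F) : EE hQ v w t * EE hQ v' w' u = EE hQ v' w' u * EE hQ v w t := by
  apply OG_ext
  intro x
  rw [EE_mul_apply hQ h h' p1 p2 p3 p4, EE_mul_apply hQ h' h (by rw [polar_comm]; exact p1)
    (by rw [polar_comm]; exact p3) (by rw [polar_comm]; exact p2) (by rw [polar_comm]; exact p4)]
  abel

lemma EE_symm {v w : V} (h : Good Q v w) (t : F) : EE hQ v w t = EE hQ w v (-t) := by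
  apply OG_ext
  intro x
  rw [EE_apply hQ h, EE_apply hQ h.symm]
  module

lemma EE_add {v w : V} (h : Good Q v w) (s t : F) : EE hQ v w s * EE hQ v w t = EE hQ v w (s + t) := by
  apply OG_ext
  intro x
  have e1 : polar Q v v = 0 := polar_self_zero h.qv
  have e2 : polar Q w w = 0 := polar_self_zero h.qw
  have e3 : polar Q w v = 0 := by rw [polar_comm]; exact h.p
  rw [EE_mul_apply hQ h h e1 h.p e3 e2, EE_apply hQ h]
  module

lemma EE_add_left {v v' w : V} (h : Good Q v w) (h' : Good Q v' w) (p : polar Q v v' = 0) (t : F) :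
    EE hQ (v + v') w t = EE hQ v w t * EE hQ v' w t := by
  have hG : Good Q (v + v') w := by
    refine ⟨?_, h.qw, ?_⟩
    · rw [Q_add, h.qv, h'.qv, p]
      simp
    · rw [polar_add_left, h.p, h'.p, add_zero]
  apply OG_ext
  intro x
  have e3 : polar Q w v' = 0 := by rw [polar_comm]; exact h'.p
  rw [EE_apply hQ hG, EE_mul_apply hQ h h' p h.p e3 (polar_self_zero h.qw), polar_add_right]
  module

lemma EE_smul_left {v w : V} (h : Good Q v w) (c t : F) : EE hQ (c • v) w t = EE hQ v w (c * t) := by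
  have hG : Good Q (c • v) w := by
    refine ⟨?_, h.qw, ?_⟩
    · rw [Q_smul, h.qv, mul_zero]
    · rw [polar_smul_l, h.p, mul_zero]
  apply OG_ext
  intro x
  rw [EE_apply hQ hG, EE_apply hQ h, polar_smul_r]
  module

lemma EE_add_smul_left {v w : V} (h : Good Q v w) (c t : F) : EE hQ (v + c • w) w t = EE hQ v w t := by
  have hG : Good Q (v + c • w) w := by
    refine ⟨?_, h.qw, ?_⟩
    · rw [Q_add, Q_smul, polar_smul_r, h.qv, h.qw, h.p]
      simp
    · rw [polar_add_left, polar_smul_l, h.p, polar_self_zero h.qw]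
      simp
  apply OG_ext
  intro x
  rw [EE_apply hQ hG, EE_apply hQ h, polar_add_right, polar_smul_r]
  module

lemma Good.map {v w : V} (h : Good Q v w) (g : OG Q) :
    Good Q ((g : V ≃ₗ[F] V) v) ((g : V ≃ₗ[F] V) w) :=
  ⟨by rw [OG_apply]; exact h.qv, by rw [OG_apply]; exact h.qw, by rw [OG_polar]; exact h.p⟩

lemma EE_conj {v w : V} (h : Good Q v w) (g : OG Q) (t : F) :
    g * EE hQ v w t * g⁻¹ = EE hQ ((g : V ≃ₗ[F] V) v) ((g : V ≃ₗ[F] V) w) t := by
  apply OG_ext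
  intro x
  obtain ⟨a, rfl⟩ : ∃ a, x = (g : V ≃ₗ[F] V) a := ⟨(g : V ≃ₗ[F] V).symm x, by simp⟩
  have h2 : ((g⁻¹ : OG Q) : V ≃ₗ[F] V) ((g : V ≃ₗ[F] V) a) = a := by
    rw [← LinearEquiv.mul_apply, ← Subgroup.coe_mul, inv_mul_cancel]
    rfl
  rw [Subgroup.coe_mul, Subgroup.coe_mul, LinearEquiv.mul_apply, LinearEquiv.mul_apply, h2,
    EE_apply hQ h, EE_apply hQ (h.map g), OG_polar, OG_polar]
  simp only [map_add, map_smul, map_sub]

end General

section Basis

variable {m : ℕ} {K : Type*} [Field K] [Fintype K]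

/-- The standard basis vector. -/
noncomputable def ev (a : Ix m) : Ix m → K := Pi.single a 1

lemma ev_apply (a b : Ix m) : (ev a : Ix m → K) b = if b = a then 1 else 0 := by
  rw [ev, Pi.single_apply]

@[simp] lemma ev_self (a : Ix m) : (ev a : Ix m → K) a = 1 := by
  rw [ev_apply, if_pos rfl]

lemma ev_ne {a b : Ix m} (h : b ≠ a) : (ev a : Ix m → K) b = 0 := by
  rw [ev_apply, if_neg h]

lemma polar_ev (x : Ix m → K) (a : Ix m) : polar (qPlus m K) x (ev a) = x a.swap := by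
  rw [Cfsg.Agent.Lib.PgoClass.polar_qPlus]
  rcases a with i | i
  · rw [Finset.sum_eq_single i]
    · simp [ev]
    · intro j _ hj
      simp [ev, Pi.single_apply, hj]
    · simp
  · rw [Finset.sum_eq_single i]
    · simp [ev]
    · intro j _ hj
      simp [ev, Pi.single_apply, hj]
    · simp

lemma Q_ev (a : Ix m) : qPlus m K (ev a) = 0 := by
  rw [qPlus_apply]
  simp only [Cfsg.quadFormPlus]
  apply Finset.sum_eq_zero
  intro i _
  rcases a with j | j
  · have : (ev (Sum.inl j) : Ix m → K) (Sum.inr i) = 0 := ev_ne (by simp)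
    rw [this, mul_zero]
  · have : (ev (Sum.inr j) : Ix m → K) (Sum.inl i) = 0 := ev_ne (by simp)
    rw [this, zero_mul]

lemma polar_ev_ev (a b : Ix m) : polar (qPlus m K) (ev a) (ev b) = if a = b.swap then 1 else 0 := by
  rw [polar_ev, ev_apply]
  by_cases h : a = b.swap
  · rw [if_pos h, if_pos h.symm]
  · rw [if_neg h, if_neg (Ne.symm h)]

lemma polar_ev_zero {a b : Ix m} (h : a ≠ b.swap) : polar (qPlus m K) (ev a) (ev b) = 0 := by
  rw [polar_ev_ev, if_neg h]

lemma good_ev {a b : Ix m} (h : a ≠ b.swap) : Good (qPlus m K) (ev a) (ev b) :=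
  ⟨Q_ev a, Q_ev b, polar_ev_zero h⟩

/-- Shorthand for non-degeneracy. -/
lemma ndg : Nondeg (qPlus m K) := nondeg_qPlus m

/-- The root element. -/
noncomputable def XX (a b : Ix m) (t : K) : OG (qPlus m K) := EE ndg (ev a) (ev b) t

lemma XX_apply {a b : Ix m} (h : Sh a b) (t : K) (x : Ix m → K) :
    ((XX a b t : OG (qPlus m K)) : (Ix m → K) ≃ₗ[K] (Ix m → K)) x =
      x + t • (x b.swap • ev a - x a.swap • ev b) := by
  rw [XX, EE_apply ndg (good_ev (ne_sw_symm h.2)), polar_ev, polar_ev]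

lemma XX_ev_b' {a b : Ix m} (h : Sh a b) (t : K) :
    ((XX a b t : OG (qPlus m K)) : (Ix m → K) ≃ₗ[K] (Ix m → K)) (ev b.swap) = ev b.swap + t • ev a := by
  rw [XX_apply h, ev_self, ev_ne (sw_ne_sw h.1)]
  simp

lemma XX_ev_a' {a b : Ix m} (h : Sh a b) (t : K) :
    ((XX a b t : OG (qPlus m K)) : (Ix m → K) ≃ₗ[K] (Ix m → K)) (ev a.swap) = ev a.swap - t • ev b := by
  rw [XX_apply h, ev_self, ev_ne (sw_ne_sw h.1.symm)]
  simp only [zero_smul, zero_sub, one_smul, smul_neg]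
  abel

lemma XX_ev_off {a b c : Ix m} (h : Sh a b) (h1 : c ≠ a.swap) (h2 : c ≠ b.swap) (t : K) :
    ((XX a b t : OG (qPlus m K)) : (Ix m → K) ≃ₗ[K] (Ix m → K)) (ev c) = ev c := by
  rw [XX_apply h, ev_ne h1.symm, ev_ne h2.symm]
  simp

/-- The model. -/
noncomputable def modelD (m : ℕ) (K : Type*) [Field K] [Fintype K] : Data m K (OG (qPlus m K)) where
  X := XX
  Xsym {a b} h t := EE_symm ndg (good_ev (ne_sw_symm h.2)) t
  addX {a b} h s t := EE_add ndg (good_ev (ne_sw_symm h.2)) s t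
  commXX {a b c d} hab hcd h1 h2 h3 h4 t u := by
    refine EE_comm ndg (good_ev (ne_sw_symm hab.2)) (good_ev (ne_sw_symm hcd.2)) ?_ ?_ ?_ ?_ t u
    · exact polar_ev_zero (ne_sw_symm h1)
    · exact polar_ev_zero (ne_sw_symm h3)
    · exact polar_ev_zero (ne_sw_symm h2)
    · exact polar_ev_zero (ne_sw_symm h4)
  relC {a b d} hab h1 h2 h3 h4 t u := by
    have hbd : (b.swap : Ix m) ≠ d.swap := sw_ne_sw (Ne.symm h3)
    have E := EE_conj ndg (good_ev (K := K) hbd) (XX a b t) u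
    have e1 := XX_ev_b' (K := K) hab t
    have e2 := XX_ev_off (K := K) hab h2 h4 t
    rw [e1, e2, EE_add_left ndg (good_ev hbd) ?_ ?_, EE_smul_left ndg ?_] at E
    · exact E
    · exact good_ev (ne_sw_symm h2)
    · refine ⟨?_, Q_ev d, ?_⟩
      · rw [Q_smul, Q_ev, mul_zero]
      · rw [polar_smul_l, polar_ev_zero (ne_sw_symm h2), mul_zero]
    · rw [polar_smul_r, polar_ev_zero (sw_ne_sw (Ne.symm hab.1)), mul_zero]
  relC' {a b} hab t u := by
    have hg : (b.swap : Ix m) ≠ a.swap := sw_ne_sw hab.1.symm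
    have E := EE_conj ndg (good_ev (K := K) hg) (XX a b t) u
    have e1 := XX_ev_b' (K := K) hab t
    have e2 := XX_ev_off (K := K) hab (sw_ne a).symm (ne_sw_symm hab.2 : a ≠ b.swap) t
    rw [e1, e2, EE_add_smul_left ndg (good_ev hg)] at E
    change XX a b t * XX b.swap a u * (XX a b t)⁻¹ = XX b.swap a u at E
    rw [mul_inv_eq_iff_eq_mul] at E
    exact E

lemma modelD_X (a b : Ix m) (t : K) : (modelD m K).X a b t = XX a b t := rfl

lemma OG_ext_ev {g h : OG (qPlus m K)}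
    (H : ∀ c : Ix m, (g : (Ix m → K) ≃ₗ[K] (Ix m → K)) (ev c) = (h : (Ix m → K) ≃ₗ[K] (Ix m → K)) (ev c)) :
    g = h := by
  apply Subtype.ext
  apply LinearEquiv.toLinearMap_injective
  apply LinearMap.pi_ext'
  intro c
  apply LinearMap.ext_ring
  exact H c

section Act

variable {a b : Ix m} (hab : Sh a b) (t : K)
include hab

/-- Values of the root element. -/
lemma XA1 : ((XX a b t : OG (qPlus m K)) : (Ix m → K) ≃ₗ[K] (Ix m → K)) (ev a) = ev a :=
  XX_ev_off hab (sw_ne a).symm (ne_sw_symm hab.2) t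

lemma XA2 : ((XX a b t : OG (qPlus m K)) : (Ix m → K) ≃ₗ[K] (Ix m → K)) (ev b) = ev b :=
  XX_ev_off hab hab.2 (sw_ne b).symm t

lemma XB1 : ((XX a.swap b.swap t : OG (qPlus m K)) : (Ix m → K) ≃ₗ[K] (Ix m → K)) (ev a.swap) = ev a.swap :=
  XX_ev_off hab.ss (by rw [sw_sw]; exact sw_ne a) (by rw [sw_sw]; exact hab.2.symm) t

lemma XB2 : ((XX a.swap b.swap t : OG (qPlus m K)) : (Ix m → K) ≃ₗ[K] (Ix m → K)) (ev b.swap) = ev b.swap :=
  XX_ev_off hab.ss (by rw [sw_sw]; exact (ne_sw_symm hab.2).symm) (by rw [sw_sw]; exact sw_ne b) t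

lemma XB3 : ((XX a.swap b.swap t : OG (qPlus m K)) : (Ix m → K) ≃ₗ[K] (Ix m → K)) (ev b) = ev b + t • ev a.swap := by
  have := XX_ev_b' (K := K) hab.ss t
  rwa [sw_sw] at this

lemma XB4 : ((XX a.swap b.swap t : OG (qPlus m K)) : (Ix m → K) ≃ₗ[K] (Ix m → K)) (ev a) = ev a - t • ev b.swap := by
  have := XX_ev_a' (K := K) hab.ss t
  rwa [sw_sw] at this

variable {t} (ht : t ≠ 0)
include ht

lemma wS_ev_a : (((modelD m K).wS a b t : OG (qPlus m K)) : (Ix m → K) ≃ₗ[K] (Ix m → K)) (ev a) =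
    (-t⁻¹) • ev b.swap := by
  simp only [Data.wS, Subgroup.coe_mul, LinearEquiv.mul_apply, modelD_X]
  rw [XA1 hab, XB4 hab, map_sub, map_smul, XA1 hab, XX_ev_b' hab, smul_add, smul_smul, inv_mul_cancel₀ ht]
  module

lemma wS_ev_b' : (((modelD m K).wS a b t : OG (qPlus m K)) : (Ix m → K) ≃ₗ[K] (Ix m → K)) (ev b.swap) =
    t • ev a := by
  simp only [Data.wS, Subgroup.coe_mul, LinearEquiv.mul_apply, modelD_X]
  rw [XX_ev_b' hab, map_add, map_smul, XB2 hab, XB4 hab, smul_sub, smul_smul, mul_inv_cancel₀ ht, map_add, map_sub, map_smul, map_smul,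
    XX_ev_b' hab, XA1 hab]
  module

lemma wS_ev_b : (((modelD m K).wS a b t : OG (qPlus m K)) : (Ix m → K) ≃ₗ[K] (Ix m → K)) (ev b) =
    t⁻¹ • ev a.swap := by
  simp only [Data.wS, Subgroup.coe_mul, LinearEquiv.mul_apply, modelD_X]
  rw [XA2 hab, XB3 hab, map_add, map_smul, XA2 hab, XX_ev_a' hab, smul_sub, smul_smul, inv_mul_cancel₀ ht]
  module

lemma wS_ev_a' : (((modelD m K).wS a b t : OG (qPlus m K)) : (Ix m → K) ≃ₗ[K] (Ix m → K)) (ev a.swap) =
    (-t) • ev b := by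
  simp only [Data.wS, Subgroup.coe_mul, LinearEquiv.mul_apply, modelD_X]
  rw [XX_ev_a' hab, map_sub, map_smul, XB1 hab, XB3 hab, smul_add, smul_smul, mul_inv_cancel₀ ht, map_sub, map_add, map_smul, map_smul,
    XX_ev_a' hab, XA2 hab]
  module

omit ht hab in
lemma wS_ev_off {c : Ix m} (hab : Sh a b) (t : K) (h : c ≠ a ∧ c ≠ b.swap ∧ c ≠ b ∧ c ≠ a.swap) :
    (((modelD m K).wS a b t : OG (qPlus m K)) : (Ix m → K) ≃ₗ[K] (Ix m → K)) (ev c) = ev c := by
  obtain ⟨h1, h2, h3, h4⟩ := h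
  simp only [Data.wS, Subgroup.coe_mul, LinearEquiv.mul_apply, modelD_X]
  have e1 : ((XX a b t : OG (qPlus m K)) : (Ix m → K) ≃ₗ[K] (Ix m → K)) (ev c) = ev c :=
    XX_ev_off hab h4 h2 t
  have e2 : ((XX a.swap b.swap t⁻¹ : OG (qPlus m K)) : (Ix m → K) ≃ₗ[K] (Ix m → K)) (ev c) = ev c :=
    XX_ev_off hab.ss (by rwa [sw_sw]) (by rwa [sw_sw]) t⁻¹
  rw [e1, e2, e1]

end Act

section Z

variable {a b : Ix m} (hab : Sh a b)
include hab

lemma hh_ev_in {c : Ix m} (h : c = a ∨ c = b ∨ c = a.swap ∨ c = b.swap) :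
    (((modelD m K).hh a b (-1) : OG (qPlus m K)) : (Ix m → K) ≃ₗ[K] (Ix m → K)) (ev c) = - ev c := by
  have h1 : (-1 : K) ≠ 0 := neg_ne_zero.2 one_ne_zero
  simp only [Data.hh, Subgroup.coe_mul, LinearEquiv.mul_apply]
  rcases h with rfl | rfl | rfl | rfl
  · rw [wS_ev_a hab h1, map_smul, wS_ev_b' hab h1]
    simp
  · rw [wS_ev_b hab h1, map_smul, wS_ev_a' hab h1]
    simp
  · rw [wS_ev_a' hab h1, map_smul, wS_ev_b hab h1]
    simp
  · rw [wS_ev_b' hab h1, map_smul, wS_ev_a hab h1]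
    simp

omit hab in
lemma hh_ev_off {c : Ix m} (hab : Sh a b) (h : ¬ (c = a ∨ c = b ∨ c = a.swap ∨ c = b.swap)) :
    (((modelD m K).hh a b (-1) : OG (qPlus m K)) : (Ix m → K) ≃ₗ[K] (Ix m → K)) (ev c) = ev c := by
  push Not at h
  obtain ⟨h1, h2, h3, h4⟩ := h
  simp only [Data.hh, Subgroup.coe_mul, LinearEquiv.mul_apply]
  rw [wS_ev_off hab _ ⟨h1, h4, h2, h3⟩, wS_ev_off hab _ ⟨h1, h4, h2, h3⟩]

end Z

/-- The spin relation in the model. -/
lemma zz_model : Data.Zz (modelD m K) := by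
  intro y x hs
  apply OG_ext_ev
  intro c
  rw [Subgroup.coe_mul, LinearEquiv.mul_apply]
  by_cases h : c = y ∨ c = x ∨ c = y.swap ∨ c = x.swap
  · have h' : c = y.swap ∨ c = x ∨ c = y.swap.swap ∨ c = x.swap := by
      rw [sw_sw]
      tauto
    have hs' : Sh y.swap x := hs.sl
    rw [hh_ev_in hs' h', map_neg, hh_ev_in hs h]
    simp
  · have h' : ¬ (c = y.swap ∨ c = x ∨ c = y.swap.swap ∨ c = x.swap) := by
      rw [sw_sw]
      tauto
    rw [hh_ev_off hs.sl h', hh_ev_off hs h]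
    rfl

end Basis

end Cfsg.Agent.Lib.DnN
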