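import Mathlib
import Cfsg.Agent.Lib.DnM1

/-!
# The model of the Steinberg relations of type `D_m`: generation and the universal property
-/

set_option autoImplicit false
set_option linter.unusedVariables false
set_option linter.unusedSectionVars false

namespace Cfsg.Agent.Lib.DnN

open QuadraticMap Cfsg.Agent.Lib.OrthoBasic Cfsg.Agent.Lib.OrthoSiegel Cfsg.Agent.Lib.OrthoGen
  Cfsg.Agent.Lib.OrthoIndex Cfsg.Agent.Lib.OrthoSimple Cfsg.Agent.Lib.OrthoCount Cfsg.Agent.Lib.OrthoOrder
  Cfsg.Agent.Lib.OrthoFinal Cfsg.Agent.Lib.OrthoChar Cfsg.Agent.Lib.OrthoDickson Cfsg.Agent.Lib.OrthoCardFinal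
open Cfsg.Agent.Lib.SpN (Ix Sh sw_sw sw_ne sw_inj sw_ne_sw ne_sw_symm)

section Gen

variable {m : ℕ} {K : Type*} [Field K] [Fintype K]

lemma Q_two (a : Ix m) (w : Ix m → K) (h : ∀ b, b ≠ a → b ≠ a.swap → w b = 0) :
    qPlus m K w = w a * w a.swap := by
  rw [qPlus_apply]
  simp only [Cfsg.quadFormPlus]
  rcases a with i | i
  · rw [Finset.sum_eq_single i]
    · rfl
    · intro j _ hj
      rw [h (Sum.inl j) (by simpa using hj) (by simp), zero_mul]
    · simp
  · rw [Finset.sum_eq_single i]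
    · exact mul_comm _ _
    · intro j _ hj
      rw [h (Sum.inl j) (by simp) (by simpa using hj), zero_mul]
    · simp

variable (G₀ : Subgroup (OG (qPlus m K))) (hX : ∀ a b t, Sh a b → (XX a b t : OG (qPlus m K)) ∈ G₀)
include hX

open Classical in
lemma reduce_vec (a : Ix m) : ∀ (n : ℕ) (u : Ix m → K), u a ≠ 0 →
      (Finset.univ.filter (fun b => u b ≠ 0 ∧ b ≠ a ∧ b ≠ a.swap)).card ≤ n →
      ∃ g ∈ G₀, ((g : OG (qPlus m K)) : (Ix m → K) ≃ₗ[K] (Ix m → K)) u a = u a ∧
        ∀ b, b ≠ a → b ≠ a.swap → ((g : OG (qPlus m K)) : (Ix m → K) ≃ₗ[K] (Ix m → K)) u b = 0 := by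
  classical
  intro n
  induction n with
  | zero =>
    intro u hu hc
    refine ⟨1, one_mem _, rfl, ?_⟩
    intro b h1 h2
    by_contra h3
    have : b ∈ Finset.univ.filter (fun b => u b ≠ 0 ∧ b ≠ a ∧ b ≠ a.swap) := by
      simp only [Finset.mem_filter, Finset.mem_univ, true_and]
      exact ⟨h3, h1, h2⟩
    rw [Nat.le_zero, Finset.card_eq_zero] at hc
    rw [hc] at this
    simp at this
  | succ n ih =>
    intro u hu hc
    by_cases hne : (Finset.univ.filter (fun b => u b ≠ 0 ∧ b ≠ a ∧ b ≠ a.swap)).Nonempty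
    · obtain ⟨b, hb⟩ := hne
      simp only [Finset.mem_filter, Finset.mem_univ, true_and] at hb
      obtain ⟨hb0, hba, hba'⟩ := hb
      have S : Sh a.swap b := ⟨hba'.symm, by rwa [sw_sw]⟩
      set t : K := u b / u a with ht
      set g : OG (qPlus m K) := XX a.swap b t with hg
      have hact : ∀ s, (g : (Ix m → K) ≃ₗ[K] (Ix m → K)) u s = u s + t * (u b.swap * (ev a.swap : Ix m → K) s - u a * (ev b : Ix m → K) s) := by
        intro s
        rw [hg, XX_apply S, sw_sw]
        simp only [Pi.add_apply, Pi.smul_apply, Pi.sub_apply, smul_eq_mul]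
      have ha1 : (g : (Ix m → K) ≃ₗ[K] (Ix m → K)) u a = u a := by
        rw [hact, ev_ne (sw_ne a).symm, ev_ne (fun e => hba e.symm)]
        simp
      have hb1 : (g : (Ix m → K) ≃ₗ[K] (Ix m → K)) u b = 0 := by
        rw [hact, ev_self, ev_ne hba', ht]
        field_simp
        ring
      have hsub : (Finset.univ.filter (fun s => (g : (Ix m → K) ≃ₗ[K] (Ix m → K)) u s ≠ 0 ∧ s ≠ a ∧ s ≠ a.swap)) ⊂
          (Finset.univ.filter (fun s => u s ≠ 0 ∧ s ≠ a ∧ s ≠ a.swap)) := by
        rw [Finset.ssubset_iff_of_subset]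
        · refine ⟨b, by simp [hb0, hba, hba'], by simp [hb1]⟩
        · intro s hs
          simp only [Finset.mem_filter, Finset.mem_univ, true_and] at hs ⊢
          obtain ⟨h1, h2, h3⟩ := hs
          refine ⟨?_, h2, h3⟩
          have hsb : s ≠ b := by
            rintro rfl
            exact h1 hb1
          rw [hact, ev_ne h3, ev_ne hsb] at h1
          simpa using h1
      have hc' := Finset.card_lt_card hsub
      have hc3 : (Finset.univ.filter (fun s => u s ≠ 0 ∧ s ≠ a ∧ s ≠ a.swap)).card ≤ n + 1 := by convert hc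
      obtain ⟨g', hg', e1, e2⟩ := ih ((g : (Ix m → K) ≃ₗ[K] (Ix m → K)) u) (by rw [ha1]; exact hu)
        (by convert Nat.le_of_lt_succ (hc'.trans_le hc3))
      refine ⟨g' * g, mul_mem hg' (hX _ _ _ S), ?_, ?_⟩
      · rw [Subgroup.coe_mul, LinearEquiv.mul_apply, e1, ha1]
      · intro s h1 h2
        rw [Subgroup.coe_mul, LinearEquiv.mul_apply, e2 s h1 h2]
    · rw [Finset.not_nonempty_iff_eq_empty] at hne
      exact ih u hu (by rw [hne]; simp)

lemma exists_reduce {u : Ix m → K} (hQ : qPlus m K u = 0) {a : Ix m} (ha : u a ≠ 0) :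
    ∃ g ∈ G₀, ((g : OG (qPlus m K)) : (Ix m → K) ≃ₗ[K] (Ix m → K)) u = u a • ev a := by
  classical
  obtain ⟨g, hg, e1, e2⟩ := reduce_vec G₀ hX a _ u ha le_rfl
  refine ⟨g, hg, ?_⟩
  have h3 := Q_two a (((g : OG (qPlus m K)) : (Ix m → K) ≃ₗ[K] (Ix m → K)) u) e2
  rw [OG_apply, hQ, e1] at h3
  have h4 : ((g : OG (qPlus m K)) : (Ix m → K) ≃ₗ[K] (Ix m → K)) u a.swap = 0 := by
    rcases mul_eq_zero.1 h3.symm with h | h
    · exact absurd h ha
    · exact h
  funext s
  simp only [Pi.smul_apply, smul_eq_mul]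
  by_cases h1 : s = a
  · subst h1
    rw [ev_self, mul_one, e1]
  · rw [ev_ne h1, mul_zero]
    by_cases h2 : s = a.swap
    · subst h2
      exact h4
    · exact e2 s h1 h2

omit hX in
lemma IsSiegel.unique {s s' : OG (qPlus m K)} {e y : Ix m → K} (h : IsSiegel s e y) (h' : IsSiegel s' e y) : s = s' :=
  OG_ext fun x => by rw [h.2.2, h'.2.2]

open Classical in
lemma siegel_sum_mem (a : Ix m) (y : Ix m → K) (S : Finset (Ix m)) (hS : ∀ c ∈ S, c ≠ a.swap) :
    ∀ s : OG (qPlus m K), IsSiegel s (ev a) (∑ c ∈ S, y c • ev c) → s ∈ G₀ := by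
  induction S using Finset.induction_on with
  | empty =>
    intro s hs
    have : s = 1 := by
      apply OG_ext
      intro x
      rw [hs.2.2]
      simp only [Finset.sum_empty]
      rw [siegelLin_zero]
      rfl
    rw [this]
    exact one_mem _
  | insert c S hc ih =>
    intro s hs
    rw [Finset.sum_insert hc] at hs
    have hc' : c ≠ a.swap := hS c (Finset.mem_insert_self _ _)
    have hS' : ∀ c ∈ S, c ≠ a.swap := fun x hx => hS x (Finset.mem_insert_of_mem hx)
    have p1 : polar (qPlus m K) (ev a) (y c • ev c) = 0 := by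
      rw [polar_smul_r, polar_ev_zero (ne_sw_symm hc'), mul_zero]
    have p2 : polar (qPlus m K) (ev a) (∑ c ∈ S, y c • ev c) = 0 := by
      have h1 := hs.2.1
      rw [polar_add_right, p1, zero_add] at h1
      exact h1
    have I1 := siegel_isSiegel ndg (Q_ev a) p1
    have I2 := siegel_isSiegel ndg (Q_ev a) p2
    have e1 : s = siegel ndg (Q_ev a) p1 * siegel ndg (Q_ev a) p2 :=
      IsSiegel.unique hs (I1.mul I2)
    rw [e1]
    refine mul_mem ?_ (ih hS' _ I2)
    by_cases h1 : c = a
    · subst h1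
      have : siegel ndg (Q_ev c) p1 = (1 : OG (qPlus m K)) := by
        apply OG_ext
        intro x
        rw [siegel_apply]
        have := siegelLin_add_smul (Q := qPlus m K) (Q_ev c) (polar_zero_right _ _ |>.trans rfl : polar (qPlus m K) (ev c) 0 = 0) (y c) x
        rw [zero_add, siegelLin_zero] at this
        rw [this]
        rfl
      rw [this]
      exact one_mem _
    · have S' : Sh a c := ⟨Ne.symm h1, hc'⟩
      have I3 := EE_isSiegel (ndg (m := m) (K := K)) (good_ev (ne_sw_symm hc')) (-(y c))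
      rw [neg_neg] at I3
      rw [IsSiegel.unique I1 I3]
      exact hX a c _ S'

/-- The root elements generate. -/
theorem siegelE_le : siegelE (qPlus m K) ≤ G₀ := by
  classical
  rw [siegelE, Subgroup.closure_le]
  rintro s ⟨e, y, hs⟩
  by_cases he : e = 0
  · subst he
    have : s = 1 := by
      apply OG_ext
      intro x
      rw [hs.2.2, siegelLin_apply]
      simp
    rw [this]
    exact one_mem _
  obtain ⟨a, ha⟩ : ∃ a, e a ≠ 0 := by
    by_contra h
    push Not at h
    exact he (funext h)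
  obtain ⟨g, hg, e1⟩ := exists_reduce G₀ hX hs.1 ha
  have I := hs.conj g
  rw [e1] at I
  set y' := ((g : OG (qPlus m K)) : (Ix m → K) ≃ₗ[K] (Ix m → K)) y with hy'
  have p1 : polar (qPlus m K) (ev a) (e a • y') = 0 := by
    have := I.2.1
    rwa [polar_smul_l, ← polar_smul_r] at this
  have I' : IsSiegel (g * s * g⁻¹) (ev a) (e a • y') := by
    refine ⟨Q_ev a, p1, fun x => ?_⟩
    rw [I.2.2, siegelLin_smul_left]
  have hy0 : (e a • y') a.swap = 0 := by
    have := p1
    rwa [polar_comm, polar_ev] at this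
  have hsum : (∑ c ∈ Finset.univ.erase a.swap, (e a • y') c • ev c) = e a • y' := by
    have h1 : (∑ c ∈ Finset.univ, (e a • y') c • (ev c : Ix m → K)) = e a • y' := by
      funext s
      rw [Finset.sum_apply, Finset.sum_eq_single s]
      · simp
      · intro b _ hb
        simp only [Pi.smul_apply, smul_eq_mul]
        rw [ev_ne (Ne.symm hb), mul_zero]
      · simp
    have h2 := Finset.add_sum_erase Finset.univ (fun c => (e a • y') c • (ev c : Ix m → K)) (Finset.mem_univ a.swap)
    simp only [hy0, zero_smul, zero_add] at h2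
    rw [h2, h1]
  rw [← hsum] at I'
  have hmem := siegel_sum_mem G₀ hX a (e a • y') _ (fun c hc => (Finset.mem_erase.1 hc).1) _ I'
  have : s = g⁻¹ * (g * s * g⁻¹) * g := by group
  rw [SetLike.mem_coe, this]
  exact mul_mem (mul_mem (inv_mem hg) hmem) hg

end Gen

end Cfsg.Agent.Lib.DnN
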