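import Mathlib
import Cfsg.Agent.Lib.DnM2

/-!
# The model of the Steinberg relations of type `D_m`: the universal property
-/

set_option autoImplicit false
set_option linter.unusedVariables false
set_option linter.unusedSectionVars false

namespace Cfsg.Agent.Lib.DnN

open QuadraticMap Cfsg.Agent.Lib.OrthoBasic Cfsg.Agent.Lib.OrthoSiegel Cfsg.Agent.Lib.OrthoGen
  Cfsg.Agent.Lib.OrthoIndex Cfsg.Agent.Lib.OrthoSimple Cfsg.Agent.Lib.OrthoCount Cfsg.Agent.Lib.OrthoOrder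
  Cfsg.Agent.Lib.OrthoFinal Cfsg.Agent.Lib.OrthoChar Cfsg.Agent.Lib.OrthoDickson Cfsg.Agent.Lib.OrthoCardFinal
open Cfsg.Agent.Lib.SpN (Ix Sh sw_sw sw_ne sw_inj sw_ne_sw ne_sw_symm)

section Arith

lemma PP_eq (q : ℕ) (k : ℕ) :
    ((q : ℤ) - 1) * (PP q k : ℤ) = ((q : ℤ) ^ (k + 2) - 1) * ((q : ℤ) ^ (k + 1) + 1) := by
  induction k with
  | zero =>
    simp only [PP]
    push_cast
    ring
  | succ k ih =>
    simp only [PP]
    push_cast
    linear_combination (q : ℤ) * ih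

lemma NG_eq {q : ℕ} (hq : 1 ≤ q) (k : ℕ) :
    (NG q k : ℤ) = (q : ℤ) ^ ((k + 2) * (k + 1)) * ((q : ℤ) ^ (k + 2) - 1) *
      ∏ i ∈ Finset.range (k + 1), ((q : ℤ) ^ (2 * (i + 1)) - 1) := by
  induction k with
  | zero =>
    simp only [NG, zero_add, Finset.prod_range_one]
    push_cast [Nat.cast_sub hq]
    ring
  | succ k ih =>
    simp only [NG]
    push_cast [Nat.cast_sub hq]
    rw [ih, Finset.prod_range_succ _ (k + 1)]
    have h1 := PP_eq q (k + 1)
    set P := ∏ i ∈ Finset.range (k + 1), ((q : ℤ) ^ (2 * (i + 1)) - 1)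
    have e : ((k + 1 + 2) * (k + 1 + 1)) = 2 * (k + 2) + (k + 2) * (k + 1) := by ring
    rw [e, pow_add]
    linear_combination ((q : ℤ) ^ (2 * (k + 2)) * (q : ℤ) ^ ((k + 2) * (k + 1)) * ((q : ℤ) ^ (k + 2) - 1) * P) * h1
      + 0

lemma NG_nat {q : ℕ} (hq : 1 ≤ q) (k : ℕ) :
    NG q k = q ^ ((k + 2) * (k + 1)) * (q ^ (k + 2) - 1) *
      ∏ i ∈ Finset.range (k + 1), (q ^ (2 * (i + 1)) - 1) := by
  have h := NG_eq hq k
  zify [Nat.one_le_pow _ _ hq]
  rw [h]

end Arith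

section Prod

variable {m : ℕ} {K Γ₁ Γ₂ : Type*} [Field K] [Group Γ₁] [Group Γ₂]

/-- The product of two data. -/
def Data.prod (D₁ : Data m K Γ₁) (D₂ : Data m K Γ₂) : Data m K (Γ₁ × Γ₂) where
  X a b t := (D₁.X a b t, D₂.X a b t)
  Xsym h t := Prod.ext (D₁.Xsym h t) (D₂.Xsym h t)
  addX h s t := Prod.ext (D₁.addX h s t) (D₂.addX h s t)
  commXX h h' h1 h2 h3 h4 t u :=
    Prod.ext (D₁.commXX h h' h1 h2 h3 h4 t u) (D₂.commXX h h' h1 h2 h3 h4 t u)
  relC h h1 h2 h3 h4 t u := Prod.ext (D₁.relC h h1 h2 h3 h4 t u) (D₂.relC h h1 h2 h3 h4 t u)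
  relC' h t u := Prod.ext (D₁.relC' h t u) (D₂.relC' h t u)

lemma zz_prod {D₁ : Data m K Γ₁} {D₂ : Data m K Γ₂} (h₁ : Data.Zz D₁) (h₂ : Data.Zz D₂) :
    Data.Zz (D₁.prod D₂) := fun hs => Prod.ext (h₁ hs) (h₂ hs)

end Prod

section Hom

variable {m k : ℕ} {K : Type*} [Field K] [Fintype K]

/-- The universal property of the Siegel group. -/
theorem exists_hom_E (hm : m = k + 2) (hm3 : 3 ≤ m) {Γ : Type*} [Group Γ] (D : Data m K Γ) (hz : Data.Zz D)
    (hcard : gK K * Nat.card (siegelE (qPlus m K)) = NG (Nat.card K) k) :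
    ∃ ψ : siegelE (qPlus m K) →* Γ, ∀ a b t (h : Sh a b),
      ψ ⟨XX a b t, EE_mem ndg (good_ev (ne_sw_symm h.2)) t⟩ = D.X a b t := by
  classical
  set P := (modelD m K).prod D with hP
  set Lv := P.LV (Finset.univ : Finset (Ix m)) with hLv
  obtain ⟨hfin, hc⟩ := Data.card_LV_univ (D := P) hm hm3 (zz_prod zz_model hz)
  rw [← hLv] at hfin hc
  have hle : Lv ≤ (siegelE (qPlus m K)).comap (MonoidHom.fst _ Γ) := by
    apply P.rt_le
    intro a b t h _
    exact EE_mem ndg (good_ev (ne_sw_symm h.2)) t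
  let π : Lv →* siegelE (qPlus m K) :=
    MonoidHom.codRestrict ((MonoidHom.fst _ Γ).comp Lv.subtype) _ (fun x => hle x.2)
  have hπ : Function.Surjective π := by
    intro x
    have hG : siegelE (qPlus m K) ≤ Lv.map (MonoidHom.fst _ Γ) := by
      apply siegelE_le
      intro a b t h
      exact ⟨(XX a b t, D.X a b t), P.rtX h ⟨Finset.mem_univ _, Finset.mem_univ _⟩ t, rfl⟩
    obtain ⟨l, hl, e⟩ := hG x.2
    exact ⟨⟨l, hl⟩, Subtype.ext e⟩
  have hfinE : Finite (siegelE (qPlus m K)) := finite_E _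
  have hpos : 0 < gK K := by
    unfold gK
    split_ifs <;> norm_num
  have hle2 : Nat.card (siegelE (qPlus m K)) ≥ Nat.card Lv := by
    apply Nat.le_of_mul_le_mul_left _ hpos
    rw [hcard]
    exact hc
  have hbij : Function.Bijective π := Function.Surjective.bijective_of_nat_card_le hπ hle2
  let ε := MulEquiv.ofBijective π hbij
  refine ⟨(MonoidHom.snd _ Γ).comp (Lv.subtype.comp ε.symm.toMonoidHom), ?_⟩
  intro a b t h
  have hmem : (XX a b t, D.X a b t) ∈ Lv := P.rtX h ⟨Finset.mem_univ _, Finset.mem_univ _⟩ t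
  have e1 : ε ⟨_, hmem⟩ = ⟨XX a b t, EE_mem ndg (good_ev (ne_sw_symm h.2)) t⟩ := Subtype.ext rfl
  rw [MonoidHom.comp_apply, MonoidHom.comp_apply]
  have e2 : ε.symm ⟨XX a b t, EE_mem ndg (good_ev (ne_sw_symm h.2)) t⟩ = ⟨_, hmem⟩ := by
    rw [← e1, MulEquiv.symm_apply_apply]
  change (Lv.subtype (ε.symm ⟨XX a b t, EE_mem ndg (good_ev (ne_sw_symm h.2)) t⟩)).2 = _
  rw [e2]
  rfl

/-- The order of the model. -/
theorem card_E_model (n : ℕ) :
    gK K * Nat.card (siegelE (qPlus (n + 3) K)) = NG (Nat.card K) (n + 1) := by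
  classical
  obtain ⟨fr⟩ := framePlus (F := K) n
  have hQ := nondeg_qPlus (F := K) (n + 3)
  have hgen := genR_qPlus (F := K) (n + 3)
  have hq1 := one_lt_q (F := K)
  rw [Nat.card_eq_fintype_card (α := K), NG_nat hq1.le]
  have h3 := card_OG_plus (F := K) (n + 2)
  set R := Fintype.card K ^ ((n + 1 + 2) * (n + 1 + 1)) * (Fintype.card K ^ (n + 1 + 2) - 1)
    * ∏ i ∈ Finset.range (n + 1 + 1), (Fintype.card K ^ (2 * (i + 1)) - 1) with hR
  have h3' : Nat.card (OG (qPlus (n + 3) K)) = 2 * R := by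
    rw [h3, hR]
    simp only [show n + 2 + 1 = n + 3 by ring, show n + 1 + 2 = n + 3 by ring, show n + 1 + 1 = n + 2 by ring]
    ring
  rcases even_or_odd_card K with hq | hodd
  · have := charP_two_of_even hq
    obtain ⟨x, hx, D, hD⟩ := dickson_plus (F := K) (n + 2)
    have h2 := even_main hq hQ hgen fr hx D hD
    have hg : gK K = 1 := by
      unfold gK
      rw [if_pos]
      rw [CharTwo.neg_eq]
    rw [hg, one_mul]
    have h4 : 2 * Nat.card (siegelE (qPlus (n + 3) K)) = 2 * R := by rw [← h2, h3']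
    exact Nat.eq_of_mul_eq_mul_left (by norm_num) h4
  · have h2 := (odd_main hodd hQ hgen fr).1
    have hg : gK K = 2 := by
      unfold gK
      rw [if_neg]
      intro h
      apply char_ne_two_of_odd hodd
      linear_combination -h
    rw [hg]
    have hO : 2 * (2 * Nat.card (siegelE (qPlus (n + 3) K))) = 2 * R := by
      rw [← h3', h2]
      ring
    exact Nat.eq_of_mul_eq_mul_left (by norm_num) hO

/-- The universal property, final form. -/
theorem exists_hom_E' (n : ℕ) {Γ : Type*} [Group Γ] (D : Data (n + 3) K Γ) (hz : Data.Zz D) :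
    ∃ ψ : siegelE (qPlus (n + 3) K) →* Γ, ∀ a b t (h : Sh a b),
      ψ ⟨XX a b t, EE_mem ndg (good_ev (ne_sw_symm h.2)) t⟩ = D.X a b t :=
  exists_hom_E (k := n + 1) (by ring) (by omega) D hz (card_E_model n)

end Hom

end Cfsg.Agent.Lib.DnN
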