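import Cfsg.Agent.Lib.E6Inv50C
import Cfsg.Agent.Lib.Chev.TwE6BN

/-!
# The unipotent group of `²E₆(q)`, `q` even: membership, normal form, conjugacy and Weyl elements
-/

set_option autoImplicit false
set_option linter.unusedSectionVars false
set_option linter.unusedVariables false
set_option linter.unusedSimpArgs false
set_option maxRecDepth 100000

namespace Cfsg.Agent.Lib.E6Inv50

open Cfsg Cfsg.Lie Cfsg.Agent.Lib.Chev Cfsg.Agent.Lib.Chev.TwE6

section Mem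

variable {K : Type*} [Field K] [CharP K 2] [Fintype K] {f : K ≃+* K}

/-- The data of the field automorphism. -/
structure Dt (f : K ≃+* K) : Prop where
  hff : ∀ t, f (f t) = t
  hν : ∃ ν : K, ν + f ν = 1

variable (d : Dt f)

include d in
theorem E_fix {t39 t44 t46 t47 t51 t53 t60 t63 t65 t69 t70 t71 : K} (h39 : f t39 = t39) (h44 : f t44 = t44) (h46 : f t46 = t46) (h47 : f t47 = t47) (h51 : f t51 = t51) (h53 : f t53 = t53) (h60 : f t60 = t60) (h63 : f t63 = t63) (h65 : f t65 = t65) (h69 : f t69 = t69) (h70 : f t70 = t70) (h71 : f t71 = t71) (l36 l37 l38 l40 l41 l45 l48 l49 l52 l54 l55 l66 : K) :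
    (τ f).s (E f l36 l37 l38 t39 l40 l41 t44 l45 t46 t47 l48 l49 t51 l52 t53 l54 l55 t60 t63 t65 l66 t69 t70 t71) = E f l36 l37 l38 t39 l40 l41 t44 l45 t46 t47 l48 l49 t51 l52 t53 l54 l55 t60 t63 t65 l66 t69 t70 t71 := by
  rw [s_E f d.hff, h39, h44, h46, h47, h51, h53, h60, h63, h65, h69, h70, h71]

include d in
theorem E_mem_G1 {t39 t44 t46 t47 t51 t53 t60 t63 t65 t69 t70 t71 : K} (h39 : f t39 = t39) (h44 : f t44 = t44) (h46 : f t46 = t46) (h47 : f t47 = t47) (h51 : f t51 = t51) (h53 : f t53 = t53) (h60 : f t60 = t60) (h63 : f t63 = t63) (h65 : f t65 = t65) (h69 : f t69 = t69) (h70 : f t70 = t70) (h71 : f t71 = t71) (l36 l37 l38 l40 l41 l45 l48 l49 l52 l54 l55 l66 : K) :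
    E f l36 l37 l38 t39 l40 l41 t44 l45 t46 t47 l48 l49 t51 l52 t53 l54 l55 t60 t63 t65 l66 t69 t70 t71 ∈ (sc f).G1 :=
  ((sc f).twG).U_fix_le (E_mem_U f l36 l37 l38 t39 l40 l41 t44 l45 t46 t47 l48 l49 t51 l52 t53 l54 l55 t60 t63 t65 l66 t69 t70 t71) (E_fix d h39 h44 h46 h47 h51 h53 h60 h63 h65 h69 h70 h71 l36 l37 l38 l40 l41 l45 l48 l49 l52 l54 l55 l66)

include d in
theorem inv_of_mem {l36 l37 l38 t39 l40 l41 t44 l45 t46 t47 l48 l49 t51 l52 t53 l54 l55 t60 t63 t65 l66 t69 t70 t71 : K} (h : E f l36 l37 l38 t39 l40 l41 t44 l45 t46 t47 l48 l49 t51 l52 t53 l54 l55 t60 t63 t65 l66 t69 t70 t71 ∈ (sc f).G1) : f t39 = t39 ∧ f t44 = t44 ∧ f t46 = t46 ∧ f t47 = t47 ∧ f t51 = t51 ∧ f t53 = t53 ∧ f t60 = t60 ∧ f t63 = t63 ∧ f t65 = t65 ∧ f t69 = t69 ∧ f t70 = t70 ∧ f t71 = t71 := by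
  have h1 := ((sc f).G1_le_Fx h).2
  rw [s_E f d.hff] at h1
  obtain ⟨-, -, -, h39, -, -, h44, -, h46, h47, -, -, h51, -, h53, -, -, h60, h63, h65, -, h69, h70, h71⟩ := E_inj f h1
  exact ⟨h39, h44, h46, h47, h51, h53, h60, h63, h65, h69, h70, h71⟩

include d in
/-- The normal form of the elements of the Sylow 2-subgroup. -/
theorem exists_E {q : ℕ} (hq : IsPrimePow q) (hK : Fintype.card K = q ^ 2) (hf : ∀ t, f t = t ^ q)
    {u : GL chevE6.Idx K} (hu : u ∈ chevE6.posUnipotent K) (hG : u ∈ (sc f).G1) :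
    ∃ l36 l37 l38 t39 l40 l41 t44 l45 t46 t47 l48 l49 t51 l52 t53 l54 l55 t60 t63 t65 l66 t69 t70 t71, (f t39 = t39 ∧ f t44 = t44 ∧ f t46 = t46 ∧ f t47 = t47 ∧ f t51 = t51 ∧ f t53 = t53 ∧ f t60 = t60 ∧ f t63 = t63 ∧ f t65 = t65 ∧ f t69 = t69 ∧ f t70 = t70 ∧ f t71 = t71) ∧ u = E f l36 l37 l38 t39 l40 l41 t44 l45 t46 t47 l48 l49 t51 l52 t53 l54 l55 t60 t63 t65 l66 t69 t70 t71 := by
  classical
  have hfx : ∀ {t : K}, t ^ q = t → f t = t := fun {t} h => by rw [hf, h]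
  have hf2 : ∀ t, f^[2] t = t := d.hff
  let D := K × K × K × {t : K // t ^ q = t} × K × K × {t : K // t ^ q = t} × K × {t : K // t ^ q = t} × {t : K // t ^ q = t} × K × K × {t : K // t ^ q = t} × K × {t : K // t ^ q = t} × K × K × {t : K // t ^ q = t} × {t : K // t ^ q = t} × {t : K // t ^ q = t} × K × {t : K // t ^ q = t} × {t : K // t ^ q = t} × {t : K // t ^ q = t}
  have hcard : Nat.card ↥(chevE6.posUnipotent K ⊓ (sc f).G1) = q ^ 36 := by
    rw [G1_eq f hf hf2]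
    exact card_U1 hq hK
  let Φ : D → ↥(chevE6.posUnipotent K ⊓ (sc f).G1) := fun p =>
    match p with
    | (a0, a1, a2, a3, a4, a5, a6, a7, a8, a9, a10, a11, a12, a13, a14, a15, a16, a17, a18, a19, a20, a21, a22, a23) =>
    ⟨E f a0 a1 a2 a3.1 a4 a5 a6.1 a7 a8.1 a9.1 a10 a11 a12.1 a13 a14.1 a15 a16 a17.1 a18.1 a19.1 a20 a21.1 a22.1 a23.1,
      E_mem_U f _ _ _ _ _ _ _ _ _ _ _ _ _ _ _ _ _ _ _ _ _ _ _ _, E_mem_G1 d (hfx a3.2) (hfx a6.2) (hfx a8.2) (hfx a9.2) (hfx a12.2) (hfx a14.2) (hfx a17.2) (hfx a18.2) (hfx a19.2) (hfx a21.2) (hfx a22.2) (hfx a23.2) _ _ _ _ _ _ _ _ _ _ _ _⟩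
  have hinj : Function.Injective Φ := by
    rintro ⟨a0, a1, a2, a3, a4, a5, a6, a7, a8, a9, a10, a11, a12, a13, a14, a15, a16, a17, a18, a19, a20, a21, a22, a23⟩ ⟨b0, b1, b2, b3, b4, b5, b6, b7, b8, b9, b10, b11, b12, b13, b14, b15, b16, b17, b18, b19, b20, b21, b22, b23⟩ h
    have h1 := congrArg Subtype.val h
    obtain ⟨e0, e1, e2, e3, e4, e5, e6, e7, e8, e9, e10, e11, e12, e13, e14, e15, e16, e17, e18, e19, e20, e21, e22, e23⟩ := E_inj f h1
    have e3' : a3 = b3 := Subtype.ext e3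
    have e6' : a6 = b6 := Subtype.ext e6
    have e8' : a8 = b8 := Subtype.ext e8
    have e9' : a9 = b9 := Subtype.ext e9
    have e12' : a12 = b12 := Subtype.ext e12
    have e14' : a14 = b14 := Subtype.ext e14
    have e17' : a17 = b17 := Subtype.ext e17
    have e18' : a18 = b18 := Subtype.ext e18
    have e19' : a19 = b19 := Subtype.ext e19
    have e21' : a21 = b21 := Subtype.ext e21
    have e22' : a22 = b22 := Subtype.ext e22
    have e23' : a23 = b23 := Subtype.ext e23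
    subst e0 e1 e2 e3' e4 e5 e6' e7 e8' e9' e10 e11 e12' e13 e14' e15 e16 e17' e18' e19' e20 e21' e22' e23'
    rfl
  have hcD : Nat.card D = q ^ 36 := by
    have h1 : Nat.card {t : K // t ^ q = t} = q := card_fix_pow hq hK (by norm_num)
    have h2 : Nat.card K = q ^ 2 := by rw [Nat.card_eq_fintype_card, hK]
    simp only [D, Nat.card_prod, h1, h2]
    ring
  have hbij : Function.Bijective Φ := (Nat.bijective_iff_injective_and_card Φ).2 ⟨hinj, by rw [hcD, hcard]⟩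
  obtain ⟨⟨a0, a1, a2, a3, a4, a5, a6, a7, a8, a9, a10, a11, a12, a13, a14, a15, a16, a17, a18, a19, a20, a21, a22, a23⟩, hp⟩ := hbij.2 ⟨u, hu, hG⟩
  exact ⟨a0, a1, a2, a3.1, a4, a5, a6.1, a7, a8.1, a9.1, a10, a11, a12.1, a13, a14.1, a15, a16, a17.1, a18.1, a19.1, a20, a21.1, a22.1, a23.1, ⟨hfx a3.2, hfx a6.2, hfx a8.2, hfx a9.2, hfx a12.2, hfx a14.2, hfx a17.2, hfx a18.2, hfx a19.2, hfx a21.2, hfx a22.2, hfx a23.2⟩, (congrArg Subtype.val hp).symm⟩

end Mem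

section Solve

variable {K : Type*} [Field K] [CharP K 2] [Fintype K] {f : K ≃+* K} (d : Dt f)

theorem fne {a : K} (h : a ≠ 0) : f a ≠ 0 := by
  rw [Ne, map_eq_zero]
  exact h

theorem of_f {a : K} (h : f a = 0) : a = 0 := by
  rwa [map_eq_zero] at h

theorem solve_mul {c : K} (hc : c ≠ 0) (z : K) : ∃ y, z = c * y := ⟨z / c, by field_simp⟩

include d in
theorem solve_fmul {c : K} (hc : c ≠ 0) (z : K) : ∃ y, z = c * f y :=
  ⟨f (z / c), by rw [d.hff]; field_simp⟩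

theorem solve_fix {c z : K} (hc : c ≠ 0) (h1 : f c = c) (h2 : f z = z) : ∃ y, f y = y ∧ z = c * y :=
  ⟨z / c, by rw [map_div₀, h1, h2], by field_simp⟩

include d in
/-- The trace form is surjective. -/
theorem solve_tr {c z : K} (hc : c ≠ 0) (h2 : f z = z) : ∃ y, z = c * f y + f c * y := by
  obtain ⟨ν, hν⟩ := d.hν
  have hfc : f c ≠ 0 := fne hc
  refine ⟨z * ν / f c, ?_⟩
  rw [map_div₀, map_mul, h2, d.hff]
  field_simp
  linear_combination (- z) * hν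

/-- A vanishing trace form gives a multiple over the fixed field. -/
theorem solve_sq {c z : K} (hc : c ≠ 0) (hff : ∀ t, f (f t) = t) (h : c * f z + z * f c = 0) : ∃ y, f y = y ∧ z = c * y := by
  have h2 : (2 : K) = 0 := CharTwo.two_eq_zero
  have hfc : f c ≠ 0 := fne hc
  refine ⟨z / c, ?_, by field_simp⟩
  rw [map_div₀]
  field_simp
  linear_combination h - (z * f c) * h2

include d in
theorem exists_nu : ∃ ν : K, ν + f ν = 1 := d.hν

end Solve

section ConjT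

variable {K : Type*} [Field K] [CharP K 2] [Fintype K] (f : K ≃+* K)

/-- Conjugacy in the twisted group. -/
def Cj (u v : GL chevE6.Idx K) : Prop := ∃ h ∈ (sc f).G1, h * u * h⁻¹ = v

theorem Cj.symm {u v : GL chevE6.Idx K} (h : Cj f u v) : Cj f v u := by
  obtain ⟨n, hn, rfl⟩ := h
  exact ⟨n⁻¹, inv_mem hn, by group⟩

theorem Cj.trans {u v w : GL chevE6.Idx K} (h : Cj f u v) (h' : Cj f v w) : Cj f u w := by
  obtain ⟨n, hn, rfl⟩ := h
  obtain ⟨m, hm, rfl⟩ := h'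
  exact ⟨m * n, mul_mem hm hn, by group⟩

theorem Cj.mem {u v : GL chevE6.Idx K} (h : Cj f u v) (hu : u ∈ (sc f).G1) : v ∈ (sc f).G1 := by
  obtain ⟨n, hn, rfl⟩ := h
  exact mul_mem (mul_mem hn hu) (inv_mem hn)

theorem Cj.sq {u v : GL chevE6.Idx K} (h : Cj f u v) (hu : u * u = 1) : v * v = 1 := by
  obtain ⟨n, hn, rfl⟩ := h
  calc n * u * n⁻¹ * (n * u * n⁻¹) = n * (u * u) * n⁻¹ := by group
    _ = 1 := by rw [hu]; group

theorem Cj.ne {u v : GL chevE6.Idx K} (h : Cj f u v) (hu : u ≠ 1) : v ≠ 1 := by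
  obtain ⟨n, hn, rfl⟩ := h
  intro h0
  apply hu
  have : u = n⁻¹ * (n * u * n⁻¹) * n := by group
  rw [this, h0]
  group

theorem cjS {h u v : GL chevE6.Idx K} (hh : h ∈ (sc f).G1) (hm : h * u = v * h) : Cj f u v :=
  ⟨h, hh, by rw [hm]; group⟩

theorem cjN {h u v : GL chevE6.Idx K} (hh : h ∈ (sc f).G1) (hm : h * u * h⁻¹ = v) : Cj f u v := ⟨h, hh, hm⟩

end ConjT

section Weyl

variable {K : Type*} [Field K] [CharP K 2]

theorem eta_one {i s : ℕ} (hi : i < chevE6.rank) (hs : s < chevE6.nroots) : ((TabE6.X.eta i s : ℤ) : K) = 1 := by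
  have h := hF.eta_sq (F := K) hi hs
  have h2 : (2 : K) = 0 := CharTwo.two_eq_zero
  have h3 : (((TabE6.X.eta i s : ℤ) : K) + 1) * (((TabE6.X.eta i s : ℤ) : K) + 1) = 0 := by
    linear_combination h + (((TabE6.X.eta i s : ℤ) : K) + 1) * h2
  have h4 : ((TabE6.X.eta i s : ℤ) : K) + 1 = 0 := by
    rcases mul_eq_zero.1 h3 with h5 | h5 <;> exact h5
  have h5 : ((TabE6.X.eta i s : ℤ) : K) = -1 := by linear_combination h4
  rw [h5, CharTwo.neg_eq]

theorem nS_conj {i s : ℕ} (hi : i < chevE6.rank) (hs : s < chevE6.nroots) (t : K) :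
    hF.nS i * x s t * (hF.nS i)⁻¹ = x (TabE6.X.wf i s) t := by
  have h := hF.nS_conj_xG (F := K) hi hs t
  rw [eta_one hi hs, one_mul] at h
  exact h

/-- The product of the Weyl generators of the twisted group. -/
noncomputable def nc (c : ℕ) : GL chevE6.Idx K :=
  match c with
  | 0 => hF.nS 1
  | 1 => hF.nS 3
  | 2 => hF.nS 2 * hF.nS 4
  | _ => hF.nS 0 * hF.nS 5

/-- The action of a Weyl generator on roots. -/
noncomputable def ac (c s : ℕ) : ℕ :=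
  match c with
  | 0 => TabE6.X.wf 1 s
  | 1 => TabE6.X.wf 3 s
  | 2 => TabE6.X.wf 2 (TabE6.X.wf 4 s)
  | _ => TabE6.X.wf 0 (TabE6.X.wf 5 s)

theorem ac_lt (c : ℕ) {s : ℕ} (hs : s < chevE6.nroots) : ac c s < chevE6.nroots := by
  match c with
  | 0 => exact hF.wf_lt (by decide) hs
  | 1 => exact hF.wf_lt (by decide) hs
  | 2 => exact hF.wf_lt (by decide) (hF.wf_lt (by decide) hs)
  | (_ + 3) => exact hF.wf_lt (by decide) (hF.wf_lt (by decide) hs)

theorem nc_conj (c : ℕ) {s : ℕ} (hs : s < chevE6.nroots) (t : K) :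
    nc c * x s t * (nc c)⁻¹ = x (ac c s) t := by
  match c with
  | 0 => exact nS_conj (by decide) hs t
  | 1 => exact nS_conj (by decide) hs t
  | 2 =>
    show hF.nS 2 * hF.nS 4 * x s t * (hF.nS 2 * hF.nS 4)⁻¹ = x (TabE6.X.wf 2 (TabE6.X.wf 4 s)) t
    have e : hF.nS 2 * hF.nS 4 * x s t * (hF.nS 2 * hF.nS 4)⁻¹ = hF.nS 2 * (hF.nS 4 * x s t * (hF.nS 4)⁻¹) * (hF.nS 2)⁻¹ := by
      group
    rw [e, nS_conj (by decide) hs, nS_conj (by decide) (hF.wf_lt (by decide) hs)]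
  | (_ + 3) =>
    show hF.nS 0 * hF.nS 5 * x s t * (hF.nS 0 * hF.nS 5)⁻¹ = x (TabE6.X.wf 0 (TabE6.X.wf 5 s)) t
    have e : hF.nS 0 * hF.nS 5 * x s t * (hF.nS 0 * hF.nS 5)⁻¹ = hF.nS 0 * (hF.nS 5 * x s t * (hF.nS 5)⁻¹) * (hF.nS 0)⁻¹ := by
      group
    rw [e, nS_conj (by decide) hs, nS_conj (by decide) (hF.wf_lt (by decide) hs)]

/-- A word in the Weyl generators of the twisted group. -/
noncomputable def nR : List ℕ → GL chevE6.Idx K
  | [] => 1
  | c :: l => nc c * nR l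

/-- The action of a word on roots. -/
noncomputable def actR : List ℕ → ℕ → ℕ
  | [], s => s
  | c :: l, s => ac c (actR l s)

theorem actR_lt (l : List ℕ) {s : ℕ} (hs : s < chevE6.nroots) : actR l s < chevE6.nroots := by
  induction l with
  | nil => exact hs
  | cons c l ih => exact ac_lt c ih

theorem nR_conj (l : List ℕ) {s : ℕ} (hs : s < chevE6.nroots) (t : K) :
    nR l * x s t * (nR l)⁻¹ = x (actR l s) t := by
  induction l with
  | nil => simp [nR, actR]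
  | cons c l ih =>
    have e : nR (c :: l) * x s t * (nR (c :: l))⁻¹ = nc c * (nR l * x s t * (nR l)⁻¹) * (nc c)⁻¹ := by
      show nc c * nR l * x s t * (nc c * nR l)⁻¹ = _
      group
    rw [e, ih, nc_conj c (actR_lt l hs)]
    rfl

theorem nR_at {l : List ℕ} {s m : ℕ} (h : s < chevE6.nroots ∧ actR l s = m) (t : K) :
    nR l * x s t * (nR l)⁻¹ = x m t := by
  rw [nR_conj l h.1, h.2]

theorem conj_x0 (n : GL chevE6.Idx K) (r : ℕ) : n * x r (0 : K) * n⁻¹ = 1 := by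
  show n * hF.c.xG r (0 : K) * n⁻¹ = 1
  rw [hF.c.xG_zero, mul_one, mul_inv_cancel]

theorem x_zero (r : ℕ) : x r (0 : K) = 1 := hF.c.xG_zero r

/-- Conjugation distributes over the general element. -/
theorem conj_W {n : GL chevE6.Idx K} (a36 a37 a38 a39 a40 a41 a42 a43 a44 a45 a46 a47 a48 a49 a50 a51 a52 a53 a54 a55 a56 a57 a58 a59 a60 a61 a62 a63 a64 a65 a66 a67 a68 a69 a70 a71 : K) :
    n * W a36 a37 a38 a39 a40 a41 a42 a43 a44 a45 a46 a47 a48 a49 a50 a51 a52 a53 a54 a55 a56 a57 a58 a59 a60 a61 a62 a63 a64 a65 a66 a67 a68 a69 a70 a71 * n⁻¹ =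
      (n * x 36 a36 * n⁻¹) * ((n * x 37 a37 * n⁻¹) * ((n * x 38 a38 * n⁻¹) * ((n * x 39 a39 * n⁻¹) * ((n * x 40 a40 * n⁻¹) * ((n * x 41 a41 * n⁻¹) * ((n * x 42 a42 * n⁻¹) * ((n * x 43 a43 * n⁻¹) * ((n * x 44 a44 * n⁻¹) * ((n * x 45 a45 * n⁻¹) * ((n * x 46 a46 * n⁻¹) * ((n * x 47 a47 * n⁻¹) * ((n * x 48 a48 * n⁻¹) * ((n * x 49 a49 * n⁻¹) * ((n * x 50 a50 * n⁻¹) * ((n * x 51 a51 * n⁻¹) * ((n * x 52 a52 * n⁻¹) * ((n * x 53 a53 * n⁻¹) * ((n * x 54 a54 * n⁻¹) * ((n * x 55 a55 * n⁻¹) * ((n * x 56 a56 * n⁻¹) * ((n * x 57 a57 * n⁻¹) * ((n * x 58 a58 * n⁻¹) * ((n * x 59 a59 * n⁻¹) * ((n * x 60 a60 * n⁻¹) * ((n * x 61 a61 * n⁻¹) * ((n * x 62 a62 * n⁻¹) * ((n * x 63 a63 * n⁻¹) * ((n * x 64 a64 * n⁻¹) * ((n * x 65 a65 * n⁻¹) * ((n * x 66 a66 * n⁻¹) * ((n * x 67 a67 * n⁻¹) * ((n * x 68 a68 * n⁻¹) * ((n * x 69 a69 * n⁻¹) * ((n * x 70 a70 * n⁻¹) * ((n * x 71 a71 * n⁻¹) * 1))))))))))))))))))))))))))))))))))) :=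 by
  unfold W
  group

variable [Fintype K] (f : K ≃+* K)

theorem nc_mem (c : ℕ) : (nc c : GL chevE6.Idx K) ∈ (sc f).G1 := by
  have key : ∀ (j : ℕ), j < chevE6.rank → ((J j).map (hF.nS (F := K))).prod ∈ (sc f).G1 := fun j hj => (sc f).nC_mem hj
  match c with
  | 0 =>
    have h := key 1 (by decide)
    rw [show J 1 = [1] from rfl] at h
    simpa [nc] using h
  | 1 =>
    have h := key 3 (by decide)
    rw [show J 3 = [3] from rfl] at h
    simpa [nc] using h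
  | 2 =>
    have h := key 2 (by decide)
    rw [show J 2 = [2, 4] from rfl] at h
    simpa [nc] using h
  | (_ + 3) =>
    have h := key 0 (by decide)
    rw [show J 0 = [0, 5] from rfl] at h
    simpa [nc] using h

theorem nR_mem (l : List ℕ) : (nR l : GL chevE6.Idx K) ∈ (sc f).G1 := by
  induction l with
  | nil => exact one_mem _
  | cons c l ih => exact mul_mem (nc_mem f c) ih

end Weyl

end Cfsg.Agent.Lib.E6Inv50
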