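import Cfsg.Agent.Lib.E6Inv50D

/-!
# The unipotent group of `²E₆(q)`, `q` even: left multiplication by root elements, the three representatives
-/

set_option autoImplicit false
set_option linter.unusedSectionVars false
set_option linter.unusedVariables false
set_option linter.unusedSimpArgs false
set_option maxRecDepth 100000

namespace Cfsg.Agent.Lib.E6Inv50

open Cfsg Cfsg.Lie Cfsg.Agent.Lib.Chev Cfsg.Agent.Lib.Chev.TwE6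

section XW

variable {K : Type*} [Field K] [CharP K 2]

theorem x_W_36 (t : K) : x 36 t = W t 0 0 0 0 0 0 0 0 0 0 0 0 0 0 0 0 0 0 0 0 0 0 0 0 0 0 0 0 0 0 0 0 0 0 0 := by
  unfold W
  simp only [x_zero, one_mul, mul_one]

theorem xW_36 (t a36 a37 a38 a39 a40 a41 a42 a43 a44 a45 a46 a47 a48 a49 a50 a51 a52 a53 a54 a55 a56 a57 a58 a59 a60 a61 a62 a63 a64 a65 a66 a67 a68 a69 a70 a71 : K) : x 36 t * W a36 a37 a38 a39 a40 a41 a42 a43 a44 a45 a46 a47 a48 a49 a50 a51 a52 a53 a54 a55 a56 a57 a58 a59 a60 a61 a62 a63 a64 a65 a66 a67 a68 a69 a70 a71 = W (a36 + t) (a37) (a38) (a39) (a40) (a41) (a42) (a43) (a44) (a45) (a46) (a47) (a48) (a49) (a50) (a51) (a52) (a53) (a54) (a55) (a56) (a57) (a58) (a59) (a60) (a61) (a62) (a63) (a64) (a65) (a66) (a67) (a68) (a69) (a70) (a71) := by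
  rw [x_W_36, W_mul]
  apply W_congr <;> ring1

theorem x_W_37 (t : K) : x 37 t = W 0 t 0 0 0 0 0 0 0 0 0 0 0 0 0 0 0 0 0 0 0 0 0 0 0 0 0 0 0 0 0 0 0 0 0 0 := by
  unfold W
  simp only [x_zero, one_mul, mul_one]

theorem xW_37 (t a36 a37 a38 a39 a40 a41 a42 a43 a44 a45 a46 a47 a48 a49 a50 a51 a52 a53 a54 a55 a56 a57 a58 a59 a60 a61 a62 a63 a64 a65 a66 a67 a68 a69 a70 a71 : K) : x 37 t * W a36 a37 a38 a39 a40 a41 a42 a43 a44 a45 a46 a47 a48 a49 a50 a51 a52 a53 a54 a55 a56 a57 a58 a59 a60 a61 a62 a63 a64 a65 a66 a67 a68 a69 a70 a71 = W (a36) (a37 + t) (a38 + a36*t) (a39) (a40) (a41) (a42) (a43) (a44) (a45) (a46) (a47) (a48) (a49) (a50) (a51) (a52) (a53) (a54) (a55) (a56) (a57) (a58) (a59) (a60) (a61) (a62) (a63) (a64) (a65) (a66) (a67) (a68) (a69) (a70) (a71) := by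
  rw [x_W_37, W_mul]
  apply W_congr <;> ring1

theorem x_W_38 (t : K) : x 38 t = W 0 0 t 0 0 0 0 0 0 0 0 0 0 0 0 0 0 0 0 0 0 0 0 0 0 0 0 0 0 0 0 0 0 0 0 0 := by
  unfold W
  simp only [x_zero, one_mul, mul_one]

theorem xW_38 (t a36 a37 a38 a39 a40 a41 a42 a43 a44 a45 a46 a47 a48 a49 a50 a51 a52 a53 a54 a55 a56 a57 a58 a59 a60 a61 a62 a63 a64 a65 a66 a67 a68 a69 a70 a71 : K) : x 38 t * W a36 a37 a38 a39 a40 a41 a42 a43 a44 a45 a46 a47 a48 a49 a50 a51 a52 a53 a54 a55 a56 a57 a58 a59 a60 a61 a62 a63 a64 a65 a66 a67 a68 a69 a70 a71 = W (a36) (a37) (a38 + t) (a39) (a40) (a41) (a42) (a43) (a44) (a45) (a46) (a47) (a48) (a49) (a50) (a51) (a52) (a53) (a54) (a55) (a56) (a57) (a58) (a59) (a60) (a61) (a62) (a63) (a64) (a65) (a66) (a67) (a68) (a69) (a70) (a71) := by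
  rw [x_W_38, W_mul]
  apply W_congr <;> ring1

theorem x_W_39 (t : K) : x 39 t = W 0 0 0 t 0 0 0 0 0 0 0 0 0 0 0 0 0 0 0 0 0 0 0 0 0 0 0 0 0 0 0 0 0 0 0 0 := by
  unfold W
  simp only [x_zero, one_mul, mul_one]

theorem xW_39 (t a36 a37 a38 a39 a40 a41 a42 a43 a44 a45 a46 a47 a48 a49 a50 a51 a52 a53 a54 a55 a56 a57 a58 a59 a60 a61 a62 a63 a64 a65 a66 a67 a68 a69 a70 a71 : K) : x 39 t * W a36 a37 a38 a39 a40 a41 a42 a43 a44 a45 a46 a47 a48 a49 a50 a51 a52 a53 a54 a55 a56 a57 a58 a59 a60 a61 a62 a63 a64 a65 a66 a67 a68 a69 a70 a71 = W (a36) (a37) (a38) (a39 + t) (a40 + a37*t) (a41 + a38*t) (a42) (a43) (a44) (a45) (a46) (a47) (a48) (a49) (a50) (a51) (a52) (a53) (a54) (a55) (a56) (a57) (a58) (a59) (a60) (a61) (a62) (a63) (a64) (a65) (a66) (a67) (a68) (a69) (a70) (a71) := by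
  rw [x_W_39, W_mul]
  apply W_congr <;> ring1

theorem x_W_40 (t : K) : x 40 t = W 0 0 0 0 t 0 0 0 0 0 0 0 0 0 0 0 0 0 0 0 0 0 0 0 0 0 0 0 0 0 0 0 0 0 0 0 := by
  unfold W
  simp only [x_zero, one_mul, mul_one]

theorem xW_40 (t a36 a37 a38 a39 a40 a41 a42 a43 a44 a45 a46 a47 a48 a49 a50 a51 a52 a53 a54 a55 a56 a57 a58 a59 a60 a61 a62 a63 a64 a65 a66 a67 a68 a69 a70 a71 : K) : x 40 t * W a36 a37 a38 a39 a40 a41 a42 a43 a44 a45 a46 a47 a48 a49 a50 a51 a52 a53 a54 a55 a56 a57 a58 a59 a60 a61 a62 a63 a64 a65 a66 a67 a68 a69 a70 a71 = W (a36) (a37) (a38) (a39) (a40 + t) (a41 + a36*t) (a42) (a43) (a44) (a45) (a46) (a47) (a48) (a49) (a50) (a51) (a52) (a53) (a54) (a55) (a56) (a57) (a58) (a59) (a60) (a61) (a62) (a63) (a64) (a65) (a66) (a67) (a68) (a69) (a70) (a71) := by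
  rw [x_W_40, W_mul]
  apply W_congr <;> ring1

theorem x_W_41 (t : K) : x 41 t = W 0 0 0 0 0 t 0 0 0 0 0 0 0 0 0 0 0 0 0 0 0 0 0 0 0 0 0 0 0 0 0 0 0 0 0 0 := by
  unfold W
  simp only [x_zero, one_mul, mul_one]

theorem xW_41 (t a36 a37 a38 a39 a40 a41 a42 a43 a44 a45 a46 a47 a48 a49 a50 a51 a52 a53 a54 a55 a56 a57 a58 a59 a60 a61 a62 a63 a64 a65 a66 a67 a68 a69 a70 a71 : K) : x 41 t * W a36 a37 a38 a39 a40 a41 a42 a43 a44 a45 a46 a47 a48 a49 a50 a51 a52 a53 a54 a55 a56 a57 a58 a59 a60 a61 a62 a63 a64 a65 a66 a67 a68 a69 a70 a71 = W (a36) (a37) (a38) (a39) (a40) (a41 + t) (a42) (a43) (a44) (a45) (a46) (a47) (a48) (a49) (a50) (a51) (a52) (a53) (a54) (a55) (a56) (a57) (a58) (a59) (a60) (a61) (a62) (a63) (a64) (a65) (a66) (a67) (a68) (a69) (a70) (a71) := by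
  rw [x_W_41, W_mul]
  apply W_congr <;> ring1

theorem x_W_42 (t : K) : x 42 t = W 0 0 0 0 0 0 t 0 0 0 0 0 0 0 0 0 0 0 0 0 0 0 0 0 0 0 0 0 0 0 0 0 0 0 0 0 := by
  unfold W
  simp only [x_zero, one_mul, mul_one]

theorem xW_42 (t a36 a37 a38 a39 a40 a41 a42 a43 a44 a45 a46 a47 a48 a49 a50 a51 a52 a53 a54 a55 a56 a57 a58 a59 a60 a61 a62 a63 a64 a65 a66 a67 a68 a69 a70 a71 : K) : x 42 t * W a36 a37 a38 a39 a40 a41 a42 a43 a44 a45 a46 a47 a48 a49 a50 a51 a52 a53 a54 a55 a56 a57 a58 a59 a60 a61 a62 a63 a64 a65 a66 a67 a68 a69 a70 a71 = W (a36) (a37) (a38) (a39) (a40) (a41) (a42 + t) (a43 + a39*t) (a44 + a40*t) (a45 + a41*t) (a46) (a47) (a48) (a49) (a50) (a51) (a52) (a53) (a54) (a55) (a56) (a57) (a58) (a59) (a60) (a61) (a62) (a63) (a64) (a65) (a66) (a67) (a68) (a69) (a70) (a71) := by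
  rw [x_W_42, W_mul]
  apply W_congr <;> ring1

theorem x_W_43 (t : K) : x 43 t = W 0 0 0 0 0 0 0 t 0 0 0 0 0 0 0 0 0 0 0 0 0 0 0 0 0 0 0 0 0 0 0 0 0 0 0 0 := by
  unfold W
  simp only [x_zero, one_mul, mul_one]

theorem xW_43 (t a36 a37 a38 a39 a40 a41 a42 a43 a44 a45 a46 a47 a48 a49 a50 a51 a52 a53 a54 a55 a56 a57 a58 a59 a60 a61 a62 a63 a64 a65 a66 a67 a68 a69 a70 a71 : K) : x 43 t * W a36 a37 a38 a39 a40 a41 a42 a43 a44 a45 a46 a47 a48 a49 a50 a51 a52 a53 a54 a55 a56 a57 a58 a59 a60 a61 a62 a63 a64 a65 a66 a67 a68 a69 a70 a71 = W (a36) (a37) (a38) (a39) (a40) (a41) (a42) (a43 + t) (a44 + a37*t) (a45 + a38*t) (a46) (a47) (a48) (a49) (a50) (a51) (a52) (a53) (a54) (a55) (a56) (a57) (a58) (a59) (a60) (a61) (a62) (a63) (a64) (a65) (a66) (a67) (a68) (a69) (a70) (a71) := by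
  rw [x_W_43, W_mul]
  apply W_congr <;> ring1

theorem x_W_44 (t : K) : x 44 t = W 0 0 0 0 0 0 0 0 t 0 0 0 0 0 0 0 0 0 0 0 0 0 0 0 0 0 0 0 0 0 0 0 0 0 0 0 := by
  unfold W
  simp only [x_zero, one_mul, mul_one]

theorem xW_44 (t a36 a37 a38 a39 a40 a41 a42 a43 a44 a45 a46 a47 a48 a49 a50 a51 a52 a53 a54 a55 a56 a57 a58 a59 a60 a61 a62 a63 a64 a65 a66 a67 a68 a69 a70 a71 : K) : x 44 t * W a36 a37 a38 a39 a40 a41 a42 a43 a44 a45 a46 a47 a48 a49 a50 a51 a52 a53 a54 a55 a56 a57 a58 a59 a60 a61 a62 a63 a64 a65 a66 a67 a68 a69 a70 a71 = W (a36) (a37) (a38) (a39) (a40) (a41) (a42) (a43) (a44 + t) (a45 + a36*t) (a46) (a47) (a48) (a49) (a50) (a51) (a52) (a53) (a54) (a55) (a56) (a57) (a58) (a59) (a60) (a61) (a62) (a63) (a64) (a65) (a66) (a67) (a68) (a69) (a70) (a71) := by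
  rw [x_W_44, W_mul]
  apply W_congr <;> ring1

theorem x_W_45 (t : K) : x 45 t = W 0 0 0 0 0 0 0 0 0 t 0 0 0 0 0 0 0 0 0 0 0 0 0 0 0 0 0 0 0 0 0 0 0 0 0 0 := by
  unfold W
  simp only [x_zero, one_mul, mul_one]

theorem xW_45 (t a36 a37 a38 a39 a40 a41 a42 a43 a44 a45 a46 a47 a48 a49 a50 a51 a52 a53 a54 a55 a56 a57 a58 a59 a60 a61 a62 a63 a64 a65 a66 a67 a68 a69 a70 a71 : K) : x 45 t * W a36 a37 a38 a39 a40 a41 a42 a43 a44 a45 a46 a47 a48 a49 a50 a51 a52 a53 a54 a55 a56 a57 a58 a59 a60 a61 a62 a63 a64 a65 a66 a67 a68 a69 a70 a71 = W (a36) (a37) (a38) (a39) (a40) (a41) (a42) (a43) (a44) (a45 + t) (a46) (a47) (a48) (a49) (a50) (a51) (a52) (a53) (a54) (a55) (a56) (a57) (a58) (a59) (a60) (a61) (a62) (a63) (a64) (a65) (a66) (a67) (a68) (a69) (a70) (a71) := by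
  rw [x_W_45, W_mul]
  apply W_congr <;> ring1

theorem x_W_46 (t : K) : x 46 t = W 0 0 0 0 0 0 0 0 0 0 t 0 0 0 0 0 0 0 0 0 0 0 0 0 0 0 0 0 0 0 0 0 0 0 0 0 := by
  unfold W
  simp only [x_zero, one_mul, mul_one]

theorem xW_46 (t a36 a37 a38 a39 a40 a41 a42 a43 a44 a45 a46 a47 a48 a49 a50 a51 a52 a53 a54 a55 a56 a57 a58 a59 a60 a61 a62 a63 a64 a65 a66 a67 a68 a69 a70 a71 : K) : x 46 t * W a36 a37 a38 a39 a40 a41 a42 a43 a44 a45 a46 a47 a48 a49 a50 a51 a52 a53 a54 a55 a56 a57 a58 a59 a60 a61 a62 a63 a64 a65 a66 a67 a68 a69 a70 a71 = W (a36) (a37) (a38) (a39) (a40) (a41) (a42) (a43) (a44) (a45) (a46 + t) (a47 + a39*t) (a48 + a40*t) (a49 + a41*t) (a50 + a43*t + a39*a42*t) (a51 + a44*t + a40*a42*t) (a52 + a45*t + a41*a42*t) (a53 + a39*a44*t + a40*a43*t) (a54 + a39*a45*t + a41*a43*t) (a55 + a40*a45*t + a41*a44*t) (a56) (a57) (a58) (a59) (a60) (a61)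 (a62) (a63) (a64) (a65) (a66) (a67) (a68) (a69) (a70) (a71) := by
  rw [x_W_46, W_mul]
  apply W_congr <;> ring1

theorem x_W_47 (t : K) : x 47 t = W 0 0 0 0 0 0 0 0 0 0 0 t 0 0 0 0 0 0 0 0 0 0 0 0 0 0 0 0 0 0 0 0 0 0 0 0 := by
  unfold W
  simp only [x_zero, one_mul, mul_one]

theorem xW_47 (t a36 a37 a38 a39 a40 a41 a42 a43 a44 a45 a46 a47 a48 a49 a50 a51 a52 a53 a54 a55 a56 a57 a58 a59 a60 a61 a62 a63 a64 a65 a66 a67 a68 a69 a70 a71 : K) : x 47 t * W a36 a37 a38 a39 a40 a41 a42 a43 a44 a45 a46 a47 a48 a49 a50 a51 a52 a53 a54 a55 a56 a57 a58 a59 a60 a61 a62 a63 a64 a65 a66 a67 a68 a69 a70 a71 = W (a36) (a37) (a38) (a39) (a40) (a41) (a42) (a43) (a44) (a45) (a46) (a47 + t) (a48 + a37*t) (a49 + a38*t) (a50 + a42*t) (a51 + a37*a42*t) (a52 + a38*a42*t) (a53 + a44*t + a37*a43*t) (a54 + a45*t + a38*a43*t) (a55 + a37*a45*t + a38*a44*t) (a56) (a57)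 (a58) (a59) (a60) (a61) (a62) (a63) (a64) (a65) (a66) (a67) (a68) (a69) (a70) (a71) := by
  rw [x_W_47, W_mul]
  apply W_congr <;> ring1

theorem x_W_48 (t : K) : x 48 t = W 0 0 0 0 0 0 0 0 0 0 0 0 t 0 0 0 0 0 0 0 0 0 0 0 0 0 0 0 0 0 0 0 0 0 0 0 := by
  unfold W
  simp only [x_zero, one_mul, mul_one]

theorem xW_48 (t a36 a37 a38 a39 a40 a41 a42 a43 a44 a45 a46 a47 a48 a49 a50 a51 a52 a53 a54 a55 a56 a57 a58 a59 a60 a61 a62 a63 a64 a65 a66 a67 a68 a69 a70 a71 : K) : x 48 t * W a36 a37 a38 a39 a40 a41 a42 a43 a44 a45 a46 a47 a48 a49 a50 a51 a52 a53 a54 a55 a56 a57 a58 a59 a60 a61 a62 a63 a64 a65 a66 a67 a68 a69 a70 a71 = W (a36) (a37) (a38) (a39) (a40) (a41) (a42) (a43) (a44) (a45) (a46) (a47) (a48 + t) (a49 + a36*t) (a50) (a51 + a42*t) (a52 + a36*a42*t) (a53 + a43*t) (a54 + a36*a43*t) (a55 + a45*t + a36*a44*t) (a56) (a57) (a58) (a59) (a60) (a61)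 (a62) (a63) (a64) (a65) (a66) (a67) (a68) (a69) (a70) (a71) := by
  rw [x_W_48, W_mul]
  apply W_congr <;> ring1

theorem x_W_49 (t : K) : x 49 t = W 0 0 0 0 0 0 0 0 0 0 0 0 0 t 0 0 0 0 0 0 0 0 0 0 0 0 0 0 0 0 0 0 0 0 0 0 := by
  unfold W
  simp only [x_zero, one_mul, mul_one]

theorem xW_49 (t a36 a37 a38 a39 a40 a41 a42 a43 a44 a45 a46 a47 a48 a49 a50 a51 a52 a53 a54 a55 a56 a57 a58 a59 a60 a61 a62 a63 a64 a65 a66 a67 a68 a69 a70 a71 : K) : x 49 t * W a36 a37 a38 a39 a40 a41 a42 a43 a44 a45 a46 a47 a48 a49 a50 a51 a52 a53 a54 a55 a56 a57 a58 a59 a60 a61 a62 a63 a64 a65 a66 a67 a68 a69 a70 a71 = W (a36) (a37) (a38) (a39) (a40) (a41) (a42) (a43) (a44) (a45) (a46) (a47) (a48) (a49 + t) (a50) (a51) (a52 + a42*t) (a53) (a54 + a43*t) (a55 + a44*t) (a56) (a57) (a58) (a59) (a60) (a61) (a62) (a63) (a64) (a65) (a66) (a67) (a68) (a69) (a70) (a71) := by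
  rw [x_W_49, W_mul]
  apply W_congr <;> ring1

theorem x_W_50 (t : K) : x 50 t = W 0 0 0 0 0 0 0 0 0 0 0 0 0 0 t 0 0 0 0 0 0 0 0 0 0 0 0 0 0 0 0 0 0 0 0 0 := by
  unfold W
  simp only [x_zero, one_mul, mul_one]

theorem xW_50 (t a36 a37 a38 a39 a40 a41 a42 a43 a44 a45 a46 a47 a48 a49 a50 a51 a52 a53 a54 a55 a56 a57 a58 a59 a60 a61 a62 a63 a64 a65 a66 a67 a68 a69 a70 a71 : K) : x 50 t * W a36 a37 a38 a39 a40 a41 a42 a43 a44 a45 a46 a47 a48 a49 a50 a51 a52 a53 a54 a55 a56 a57 a58 a59 a60 a61 a62 a63 a64 a65 a66 a67 a68 a69 a70 a71 = W (a36) (a37) (a38) (a39) (a40) (a41) (a42) (a43) (a44) (a45) (a46) (a47) (a48) (a49) (a50 + t) (a51 + a37*t) (a52 + a38*t) (a53 + a40*t + a37*a39*t) (a54 + a41*t + a38*a39*t) (a55 + a37*a41*t + a38*a40*t) (a56) (a57) (a58) (a59) (a60) (a61) (a62) (a63) (a64) (a65) (a66) (a67) (a68) (a69) (a70) (a71) := by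
  rw [x_W_50, W_mul]
  apply W_congr <;> ring1

theorem x_W_51 (t : K) : x 51 t = W 0 0 0 0 0 0 0 0 0 0 0 0 0 0 0 t 0 0 0 0 0 0 0 0 0 0 0 0 0 0 0 0 0 0 0 0 := by
  unfold W
  simp only [x_zero, one_mul, mul_one]

theorem xW_51 (t a36 a37 a38 a39 a40 a41 a42 a43 a44 a45 a46 a47 a48 a49 a50 a51 a52 a53 a54 a55 a56 a57 a58 a59 a60 a61 a62 a63 a64 a65 a66 a67 a68 a69 a70 a71 : K) : x 51 t * W a36 a37 a38 a39 a40 a41 a42 a43 a44 a45 a46 a47 a48 a49 a50 a51 a52 a53 a54 a55 a56 a57 a58 a59 a60 a61 a62 a63 a64 a65 a66 a67 a68 a69 a70 a71 = W (a36) (a37) (a38) (a39) (a40) (a41) (a42) (a43) (a44) (a45) (a46) (a47) (a48) (a49) (a50) (a51 + t) (a52 + a36*t) (a53 + a39*t) (a54 + a36*a39*t) (a55 + a41*t + a36*a40*t) (a56) (a57) (a58) (a59) (a60) (a61) (a62) (a63) (a64) (a65) (a66) (a67) (a68) (a69) (a70) (a71) := by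
  rw [x_W_51, W_mul]
  apply W_congr <;> ring1

theorem x_W_52 (t : K) : x 52 t = W 0 0 0 0 0 0 0 0 0 0 0 0 0 0 0 0 t 0 0 0 0 0 0 0 0 0 0 0 0 0 0 0 0 0 0 0 := by
  unfold W
  simp only [x_zero, one_mul, mul_one]

theorem xW_52 (t a36 a37 a38 a39 a40 a41 a42 a43 a44 a45 a46 a47 a48 a49 a50 a51 a52 a53 a54 a55 a56 a57 a58 a59 a60 a61 a62 a63 a64 a65 a66 a67 a68 a69 a70 a71 : K) : x 52 t * W a36 a37 a38 a39 a40 a41 a42 a43 a44 a45 a46 a47 a48 a49 a50 a51 a52 a53 a54 a55 a56 a57 a58 a59 a60 a61 a62 a63 a64 a65 a66 a67 a68 a69 a70 a71 = W (a36) (a37) (a38) (a39) (a40) (a41) (a42) (a43) (a44) (a45) (a46) (a47) (a48) (a49) (a50) (a51) (a52 + t) (a53) (a54 + a39*t) (a55 + a40*t) (a56) (a57) (a58) (a59) (a60) (a61) (a62) (a63) (a64) (a65) (a66) (a67) (a68) (a69) (a70) (a71) := by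
  rw [x_W_52, W_mul]
  apply W_congr <;> ring1

theorem x_W_53 (t : K) : x 53 t = W 0 0 0 0 0 0 0 0 0 0 0 0 0 0 0 0 0 t 0 0 0 0 0 0 0 0 0 0 0 0 0 0 0 0 0 0 := by
  unfold W
  simp only [x_zero, one_mul, mul_one]

theorem xW_53 (t a36 a37 a38 a39 a40 a41 a42 a43 a44 a45 a46 a47 a48 a49 a50 a51 a52 a53 a54 a55 a56 a57 a58 a59 a60 a61 a62 a63 a64 a65 a66 a67 a68 a69 a70 a71 : K) : x 53 t * W a36 a37 a38 a39 a40 a41 a42 a43 a44 a45 a46 a47 a48 a49 a50 a51 a52 a53 a54 a55 a56 a57 a58 a59 a60 a61 a62 a63 a64 a65 a66 a67 a68 a69 a70 a71 = W (a36) (a37) (a38) (a39) (a40) (a41) (a42) (a43) (a44) (a45) (a46) (a47) (a48) (a49) (a50) (a51) (a52) (a53 + t) (a54 + a36*t) (a55 + a38*t + a36*a37*t) (a56) (a57) (a58) (a59) (a60) (a61) (a62) (a63) (a64) (a65) (a66) (a67) (a68) (a69) (a70) (a71) := by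
  rw [x_W_53, W_mul]
  apply W_congr <;> ring1

theorem x_W_54 (t : K) : x 54 t = W 0 0 0 0 0 0 0 0 0 0 0 0 0 0 0 0 0 0 t 0 0 0 0 0 0 0 0 0 0 0 0 0 0 0 0 0 := by
  unfold W
  simp only [x_zero, one_mul, mul_one]

theorem xW_54 (t a36 a37 a38 a39 a40 a41 a42 a43 a44 a45 a46 a47 a48 a49 a50 a51 a52 a53 a54 a55 a56 a57 a58 a59 a60 a61 a62 a63 a64 a65 a66 a67 a68 a69 a70 a71 : K) : x 54 t * W a36 a37 a38 a39 a40 a41 a42 a43 a44 a45 a46 a47 a48 a49 a50 a51 a52 a53 a54 a55 a56 a57 a58 a59 a60 a61 a62 a63 a64 a65 a66 a67 a68 a69 a70 a71 = W (a36) (a37) (a38) (a39) (a40) (a41) (a42) (a43) (a44) (a45) (a46) (a47) (a48) (a49) (a50) (a51) (a52) (a53) (a54 + t) (a55 + a37*t) (a56) (a57) (a58) (a59) (a60) (a61) (a62) (a63) (a64) (a65) (a66) (a67) (a68) (a69) (a70) (a71) := by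
  rw [x_W_54, W_mul]
  apply W_congr <;> ring1

theorem x_W_55 (t : K) : x 55 t = W 0 0 0 0 0 0 0 0 0 0 0 0 0 0 0 0 0 0 0 t 0 0 0 0 0 0 0 0 0 0 0 0 0 0 0 0 := by
  unfold W
  simp only [x_zero, one_mul, mul_one]

theorem xW_55 (t a36 a37 a38 a39 a40 a41 a42 a43 a44 a45 a46 a47 a48 a49 a50 a51 a52 a53 a54 a55 a56 a57 a58 a59 a60 a61 a62 a63 a64 a65 a66 a67 a68 a69 a70 a71 : K) : x 55 t * W a36 a37 a38 a39 a40 a41 a42 a43 a44 a45 a46 a47 a48 a49 a50 a51 a52 a53 a54 a55 a56 a57 a58 a59 a60 a61 a62 a63 a64 a65 a66 a67 a68 a69 a70 a71 = W (a36) (a37) (a38) (a39) (a40) (a41) (a42) (a43) (a44) (a45) (a46) (a47) (a48) (a49) (a50) (a51) (a52) (a53) (a54) (a55 + t) (a56) (a57) (a58) (a59) (a60) (a61) (a62) (a63) (a64) (a65) (a66) (a67) (a68) (a69) (a70) (a71) := by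
  rw [x_W_55, W_mul]
  apply W_congr <;> ring1

theorem x_W_56 (t : K) : x 56 t = W 0 0 0 0 0 0 0 0 0 0 0 0 0 0 0 0 0 0 0 0 t 0 0 0 0 0 0 0 0 0 0 0 0 0 0 0 := by
  unfold W
  simp only [x_zero, one_mul, mul_one]

theorem xW_56 (t a36 a37 a38 a39 a40 a41 a42 a43 a44 a45 a46 a47 a48 a49 a50 a51 a52 a53 a54 a55 a56 a57 a58 a59 a60 a61 a62 a63 a64 a65 a66 a67 a68 a69 a70 a71 : K) : x 56 t * W a36 a37 a38 a39 a40 a41 a42 a43 a44 a45 a46 a47 a48 a49 a50 a51 a52 a53 a54 a55 a56 a57 a58 a59 a60 a61 a62 a63 a64 a65 a66 a67 a68 a69 a70 a71 = W (a36) (a37) (a38) (a39) (a40) (a41) (a42) (a43) (a44) (a45) (a46) (a47) (a48) (a49) (a50) (a51) (a52) (a53) (a54) (a55) (a56 + t) (a57 + a42*t) (a58 + a43*t) (a59 + a44*t) (a60 + a45*t) (a61 + a50*t + a42*a47*t + a43*a46*t) (a62 + a51*t + a42*a48*t + a44*a46*t) (a63 + a52*t + a42*a49*t + a45*a46*t) (a64 + a53*t +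 a43*a48*t + a44*a47*t) (a65 + a54*t + a43*a49*t + a45*a47*t) (a66 + a55*t + a44*a49*t + a45*a48*t) (a67 + a42*a53*t + a43*a51*t + a44*a50*t) (a68 + a42*a54*t + a43*a52*t + a45*a50*t) (a69 + a42*a55*t + a44*a52*t + a45*a51*t) (a70 + a43*a55*t + a44*a54*t + a45*a53*t) (a71 + a50*a55*t + a51*a54*t + a52*a53*t + a42*a47*a55*t + a42*a48*a54*t + a42*a49*a53*t + a43*a46*a55*t + a43*a48*a52*t + a43*a49*a51*t + a44*a46*a54*t + a44*a47*a52*t + a44*a49*a50*t + a45*a46*a53*t + a45*a47*a51*t + a45*a48*a50*t) := by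
  rw [x_W_56, W_mul]
  apply W_congr <;> ring1

theorem x_W_57 (t : K) : x 57 t = W 0 0 0 0 0 0 0 0 0 0 0 0 0 0 0 0 0 0 0 0 0 t 0 0 0 0 0 0 0 0 0 0 0 0 0 0 := by
  unfold W
  simp only [x_zero, one_mul, mul_one]

theorem xW_57 (t a36 a37 a38 a39 a40 a41 a42 a43 a44 a45 a46 a47 a48 a49 a50 a51 a52 a53 a54 a55 a56 a57 a58 a59 a60 a61 a62 a63 a64 a65 a66 a67 a68 a69 a70 a71 : K) : x 57 t * W a36 a37 a38 a39 a40 a41 a42 a43 a44 a45 a46 a47 a48 a49 a50 a51 a52 a53 a54 a55 a56 a57 a58 a59 a60 a61 a62 a63 a64 a65 a66 a67 a68 a69 a70 a71 = W (a36) (a37) (a38) (a39) (a40) (a41) (a42) (a43) (a44) (a45) (a46) (a47) (a48) (a49) (a50) (a51) (a52) (a53) (a54) (a55) (a56) (a57 + t) (a58 + a39*t) (a59 + a40*t) (a60 + a41*t) (a61 + a47*t + a39*a46*t) (a62 + a48*t + a40*a46*t) (a63 + a49*t + a41*a46*t) (a64 + a39*a48*t + a40*a47*t) (a65 + a39*a49*t + a41*a47*t)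 (a66 + a40*a49*t + a41*a48*t) (a67 + a53*t + a39*a51*t + a40*a50*t) (a68 + a54*t + a39*a52*t + a41*a50*t) (a69 + a55*t + a40*a52*t + a41*a51*t) (a70 + a39*a55*t + a40*a54*t + a41*a53*t) (a71 + a47*a55*t + a48*a54*t + a49*a53*t + a39*a46*a55*t + a39*a48*a52*t + a39*a49*a51*t + a40*a46*a54*t + a40*a47*a52*t + a40*a49*a50*t + a41*a46*a53*t + a41*a47*a51*t + a41*a48*a50*t) := by
  rw [x_W_57, W_mul]
  apply W_congr <;> ring1

theorem x_W_58 (t : K) : x 58 t = W 0 0 0 0 0 0 0 0 0 0 0 0 0 0 0 0 0 0 0 0 0 0 t 0 0 0 0 0 0 0 0 0 0 0 0 0 := by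
  unfold W
  simp only [x_zero, one_mul, mul_one]

theorem xW_58 (t a36 a37 a38 a39 a40 a41 a42 a43 a44 a45 a46 a47 a48 a49 a50 a51 a52 a53 a54 a55 a56 a57 a58 a59 a60 a61 a62 a63 a64 a65 a66 a67 a68 a69 a70 a71 : K) : x 58 t * W a36 a37 a38 a39 a40 a41 a42 a43 a44 a45 a46 a47 a48 a49 a50 a51 a52 a53 a54 a55 a56 a57 a58 a59 a60 a61 a62 a63 a64 a65 a66 a67 a68 a69 a70 a71 = W (a36) (a37) (a38) (a39) (a40) (a41) (a42) (a43) (a44) (a45) (a46) (a47) (a48) (a49) (a50) (a51) (a52) (a53) (a54) (a55) (a56) (a57) (a58 + t) (a59 + a37*t) (a60 + a38*t) (a61 + a46*t) (a62 + a37*a46*t) (a63 + a38*a46*t) (a64 + a48*t + a37*a47*t) (a65 + a49*t + a38*a47*t) (a66 + a37*a49*t + a38*a48*t) (a67 + a51*t + a37*a50*t) (a68 + a52*t + a38*a50*t) (a69 + a37*a52*t + a38*a51*t) (a70 + a55*t + a37*a54*t + a38*a53*t) (a71 + a46*a55*t + a48*a52*t + a49*a51*t + a37*a46*a54*t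 + a37*a47*a52*t + a37*a49*a50*t + a38*a46*a53*t + a38*a47*a51*t + a38*a48*a50*t) := by
  rw [x_W_58, W_mul]
  apply W_congr <;> ring1

theorem x_W_59 (t : K) : x 59 t = W 0 0 0 0 0 0 0 0 0 0 0 0 0 0 0 0 0 0 0 0 0 0 0 t 0 0 0 0 0 0 0 0 0 0 0 0 := by
  unfold W
  simp only [x_zero, one_mul, mul_one]

theorem xW_59 (t a36 a37 a38 a39 a40 a41 a42 a43 a44 a45 a46 a47 a48 a49 a50 a51 a52 a53 a54 a55 a56 a57 a58 a59 a60 a61 a62 a63 a64 a65 a66 a67 a68 a69 a70 a71 : K) : x 59 t * W a36 a37 a38 a39 a40 a41 a42 a43 a44 a45 a46 a47 a48 a49 a50 a51 a52 a53 a54 a55 a56 a57 a58 a59 a60 a61 a62 a63 a64 a65 a66 a67 a68 a69 a70 a71 = W (a36) (a37) (a38) (a39) (a40) (a41) (a42) (a43) (a44) (a45) (a46) (a47) (a48) (a49) (a50) (a51) (a52) (a53) (a54) (a55) (a56) (a57) (a58) (a59 + t) (a60 + a36*t) (a61) (a62 + a46*t) (a63 + a36*a46*t) (a64 + a47*t) (a65 + a36*a47*t)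 (a66 + a49*t + a36*a48*t) (a67 + a50*t) (a68 + a36*a50*t) (a69 + a52*t + a36*a51*t) (a70 + a54*t + a36*a53*t) (a71 + a46*a54*t + a47*a52*t + a49*a50*t + a36*a46*a53*t + a36*a47*a51*t + a36*a48*a50*t) := by
  rw [x_W_59, W_mul]
  apply W_congr <;> ring1

theorem x_W_60 (t : K) : x 60 t = W 0 0 0 0 0 0 0 0 0 0 0 0 0 0 0 0 0 0 0 0 0 0 0 0 t 0 0 0 0 0 0 0 0 0 0 0 := by
  unfold W
  simp only [x_zero, one_mul, mul_one]

theorem xW_60 (t a36 a37 a38 a39 a40 a41 a42 a43 a44 a45 a46 a47 a48 a49 a50 a51 a52 a53 a54 a55 a56 a57 a58 a59 a60 a61 a62 a63 a64 a65 a66 a67 a68 a69 a70 a71 : K) : x 60 t * W a36 a37 a38 a39 a40 a41 a42 a43 a44 a45 a46 a47 a48 a49 a50 a51 a52 a53 a54 a55 a56 a57 a58 a59 a60 a61 a62 a63 a64 a65 a66 a67 a68 a69 a70 a71 = W (a36) (a37) (a38) (a39) (a40) (a41) (a42) (a43) (a44) (a45) (a46) (a47) (a48) (a49) (a50) (a51) (a52) (a53)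 (a54) (a55) (a56) (a57) (a58) (a59) (a60 + t) (a61) (a62) (a63 + a46*t) (a64) (a65 + a47*t) (a66 + a48*t) (a67) (a68 + a50*t) (a69 + a51*t) (a70 + a53*t) (a71 + a46*a53*t + a47*a51*t + a48*a50*t) := by
  rw [x_W_60, W_mul]
  apply W_congr <;> ring1

theorem x_W_61 (t : K) : x 61 t = W 0 0 0 0 0 0 0 0 0 0 0 0 0 0 0 0 0 0 0 0 0 0 0 0 0 t 0 0 0 0 0 0 0 0 0 0 := by
  unfold W
  simp only [x_zero, one_mul, mul_one]

theorem xW_61 (t a36 a37 a38 a39 a40 a41 a42 a43 a44 a45 a46 a47 a48 a49 a50 a51 a52 a53 a54 a55 a56 a57 a58 a59 a60 a61 a62 a63 a64 a65 a66 a67 a68 a69 a70 a71 : K) : x 61 t * W a36 a37 a38 a39 a40 a41 a42 a43 a44 a45 a46 a47 a48 a49 a50 a51 a52 a53 a54 a55 a56 a57 a58 a59 a60 a61 a62 a63 a64 a65 a66 a67 a68 a69 a70 a71 = W (a36) (a37) (a38) (a39) (a40) (a41) (a42) (a43) (a44) (a45) (a46) (a47) (a48) (a49) (a50) (a51) (a52) (a53) (a54)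 (a55) (a56) (a57) (a58) (a59) (a60) (a61 + t) (a62 + a37*t) (a63 + a38*t) (a64 + a40*t + a37*a39*t) (a65 + a41*t + a38*a39*t) (a66 + a37*a41*t + a38*a40*t) (a67 + a44*t + a37*a43*t + a40*a42*t + a37*a39*a42*t) (a68 + a45*t + a38*a43*t + a41*a42*t + a38*a39*a42*t) (a69 + a37*a45*t + a38*a44*t + a37*a41*a42*t + a38*a40*a42*t) (a70 + a40*a45*t + a41*a44*t + a37*a39*a45*t + a37*a41*a43*t + a38*a39*a44*t + a38*a40*a43*t) (a71 + a55*t + a37*a54*t + a38*a53*t + a40*a52*t + a41*a51*t + a44*a49*t + a45*a48*t + a37*a39*a52*t + a37*a41*a50*t + a37*a43*a49*t + a37*a45*a47*t + a38*a39*a51*t + a38*a40*a50*t + a38*a43*a48*t + a38*a44*a47*t + a40*a42*a49*t + a40*a45*a46*t + a41*a42*a48*t + a41*a44*a46*t + a37*a39*a42*a49*t + a37*a39*a45*a46*t + a37*a41*a42*a47*t + a37*a41*a43*a46*t + a38*a39*a42*a48*t + a38*a39*a44*a46*t + a38*a40*a42*a47*t + a38*a40*a43*a46*t)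 := by
  rw [x_W_61, W_mul]
  apply W_congr <;> ring1

theorem x_W_62 (t : K) : x 62 t = W 0 0 0 0 0 0 0 0 0 0 0 0 0 0 0 0 0 0 0 0 0 0 0 0 0 0 t 0 0 0 0 0 0 0 0 0 := by
  unfold W
  simp only [x_zero, one_mul, mul_one]

theorem xW_62 (t a36 a37 a38 a39 a40 a41 a42 a43 a44 a45 a46 a47 a48 a49 a50 a51 a52 a53 a54 a55 a56 a57 a58 a59 a60 a61 a62 a63 a64 a65 a66 a67 a68 a69 a70 a71 : K) : x 62 t * W a36 a37 a38 a39 a40 a41 a42 a43 a44 a45 a46 a47 a48 a49 a50 a51 a52 a53 a54 a55 a56 a57 a58 a59 a60 a61 a62 a63 a64 a65 a66 a67 a68 a69 a70 a71 = W (a36) (a37) (a38) (a39) (a40) (a41) (a42) (a43) (a44) (a45) (a46) (a47) (a48) (a49) (a50) (a51) (a52) (a53) (a54) (a55) (a56) (a57) (a58) (a59) (a60) (a61) (a62 + t) (a63 + a36*t) (a64 + a39*t) (a65 + a36*a39*t) (a66 + a41*t + a36*a40*t) (a67 + a43*t + a39*a42*t) (a68 + a36*a43*t + a36*a39*a42*t) (a69 + a45*t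 + a36*a44*t + a41*a42*t + a36*a40*a42*t) (a70 + a39*a45*t + a41*a43*t + a36*a39*a44*t + a36*a40*a43*t) (a71 + a54*t + a36*a53*t + a39*a52*t + a41*a50*t + a43*a49*t + a45*a47*t + a36*a39*a51*t + a36*a40*a50*t + a36*a43*a48*t + a36*a44*a47*t + a39*a42*a49*t + a39*a45*a46*t + a41*a42*a47*t + a41*a43*a46*t + a36*a39*a42*a48*t + a36*a39*a44*a46*t + a36*a40*a42*a47*t + a36*a40*a43*a46*t) := by
  rw [x_W_62, W_mul]
  apply W_congr <;> ring1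

theorem x_W_63 (t : K) : x 63 t = W 0 0 0 0 0 0 0 0 0 0 0 0 0 0 0 0 0 0 0 0 0 0 0 0 0 0 0 t 0 0 0 0 0 0 0 0 := by
  unfold W
  simp only [x_zero, one_mul, mul_one]

theorem xW_63 (t a36 a37 a38 a39 a40 a41 a42 a43 a44 a45 a46 a47 a48 a49 a50 a51 a52 a53 a54 a55 a56 a57 a58 a59 a60 a61 a62 a63 a64 a65 a66 a67 a68 a69 a70 a71 : K) : x 63 t * W a36 a37 a38 a39 a40 a41 a42 a43 a44 a45 a46 a47 a48 a49 a50 a51 a52 a53 a54 a55 a56 a57 a58 a59 a60 a61 a62 a63 a64 a65 a66 a67 a68 a69 a70 a71 = W (a36) (a37) (a38) (a39) (a40) (a41) (a42) (a43) (a44) (a45) (a46) (a47) (a48) (a49) (a50) (a51) (a52) (a53) (a54) (a55) (a56) (a57) (a58) (a59) (a60) (a61) (a62) (a63 + t) (a64) (a65 + a39*t) (a66 + a40*t) (a67) (a68 + a43*t + a39*a42*t) (a69 + a44*t + a40*a42*t) (a70 + a39*a44*t + a40*a43*t) (a71 + a53*t + a39*a51*t + a40*a50*t + a43*a48*t + a44*a47*t + a39*a42*a48*t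 + a39*a44*a46*t + a40*a42*a47*t + a40*a43*a46*t) := by
  rw [x_W_63, W_mul]
  apply W_congr <;> ring1

theorem x_W_64 (t : K) : x 64 t = W 0 0 0 0 0 0 0 0 0 0 0 0 0 0 0 0 0 0 0 0 0 0 0 0 0 0 0 0 t 0 0 0 0 0 0 0 := by
  unfold W
  simp only [x_zero, one_mul, mul_one]

theorem xW_64 (t a36 a37 a38 a39 a40 a41 a42 a43 a44 a45 a46 a47 a48 a49 a50 a51 a52 a53 a54 a55 a56 a57 a58 a59 a60 a61 a62 a63 a64 a65 a66 a67 a68 a69 a70 a71 : K) : x 64 t * W a36 a37 a38 a39 a40 a41 a42 a43 a44 a45 a46 a47 a48 a49 a50 a51 a52 a53 a54 a55 a56 a57 a58 a59 a60 a61 a62 a63 a64 a65 a66 a67 a68 a69 a70 a71 = W (a36) (a37) (a38) (a39) (a40) (a41) (a42) (a43) (a44) (a45) (a46) (a47) (a48) (a49) (a50) (a51) (a52) (a53) (a54) (a55) (a56) (a57) (a58) (a59) (a60) (a61) (a62) (a63) (a64 + t) (a65 + a36*t) (a66 + a38*t + a36*a37*t) (a67 + a42*t) (a68 + a36*a42*t) (a69 + a38*a42*t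 + a36*a37*a42*t) (a70 + a45*t + a36*a44*t + a38*a43*t + a36*a37*a43*t) (a71 + a52*t + a36*a51*t + a38*a50*t + a42*a49*t + a45*a46*t + a36*a37*a50*t + a36*a42*a48*t + a36*a44*a46*t + a38*a42*a47*t + a38*a43*a46*t + a36*a37*a42*a47*t + a36*a37*a43*a46*t) := by
  rw [x_W_64, W_mul]
  apply W_congr <;> ring1

theorem x_W_65 (t : K) : x 65 t = W 0 0 0 0 0 0 0 0 0 0 0 0 0 0 0 0 0 0 0 0 0 0 0 0 0 0 0 0 0 t 0 0 0 0 0 0 := by
  unfold W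
  simp only [x_zero, one_mul, mul_one]

theorem xW_65 (t a36 a37 a38 a39 a40 a41 a42 a43 a44 a45 a46 a47 a48 a49 a50 a51 a52 a53 a54 a55 a56 a57 a58 a59 a60 a61 a62 a63 a64 a65 a66 a67 a68 a69 a70 a71 : K) : x 65 t * W a36 a37 a38 a39 a40 a41 a42 a43 a44 a45 a46 a47 a48 a49 a50 a51 a52 a53 a54 a55 a56 a57 a58 a59 a60 a61 a62 a63 a64 a65 a66 a67 a68 a69 a70 a71 = W (a36) (a37) (a38) (a39) (a40) (a41) (a42) (a43) (a44) (a45) (a46) (a47) (a48) (a49) (a50) (a51) (a52) (a53) (a54) (a55) (a56) (a57) (a58) (a59) (a60) (a61) (a62) (a63) (a64) (a65 + t) (a66 + a37*t) (a67) (a68 + a42*t) (a69 + a37*a42*t) (a70 + a44*t + a37*a43*t) (a71 + a51*t + a37*a50*t + a42*a48*t + a44*a46*t + a37*a42*a47*t + a37*a43*a46*t) := by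
  rw [x_W_65, W_mul]
  apply W_congr <;> ring1

theorem x_W_66 (t : K) : x 66 t = W 0 0 0 0 0 0 0 0 0 0 0 0 0 0 0 0 0 0 0 0 0 0 0 0 0 0 0 0 0 0 t 0 0 0 0 0 := by
  unfold W
  simp only [x_zero, one_mul, mul_one]

theorem xW_66 (t a36 a37 a38 a39 a40 a41 a42 a43 a44 a45 a46 a47 a48 a49 a50 a51 a52 a53 a54 a55 a56 a57 a58 a59 a60 a61 a62 a63 a64 a65 a66 a67 a68 a69 a70 a71 : K) : x 66 t * W a36 a37 a38 a39 a40 a41 a42 a43 a44 a45 a46 a47 a48 a49 a50 a51 a52 a53 a54 a55 a56 a57 a58 a59 a60 a61 a62 a63 a64 a65 a66 a67 a68 a69 a70 a71 = W (a36) (a37) (a38) (a39) (a40) (a41) (a42) (a43) (a44) (a45) (a46) (a47) (a48) (a49) (a50) (a51) (a52) (a53) (a54) (a55) (a56) (a57) (a58) (a59) (a60) (a61) (a62) (a63) (a64) (a65) (a66 + t) (a67) (a68) (a69 + a42*t) (a70 + a43*t) (a71 + a50*t + a42*a47*t + a43*a46*t) := by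
  rw [x_W_66, W_mul]
  apply W_congr <;> ring1

theorem x_W_67 (t : K) : x 67 t = W 0 0 0 0 0 0 0 0 0 0 0 0 0 0 0 0 0 0 0 0 0 0 0 0 0 0 0 0 0 0 0 t 0 0 0 0 := by
  unfold W
  simp only [x_zero, one_mul, mul_one]

theorem xW_67 (t a36 a37 a38 a39 a40 a41 a42 a43 a44 a45 a46 a47 a48 a49 a50 a51 a52 a53 a54 a55 a56 a57 a58 a59 a60 a61 a62 a63 a64 a65 a66 a67 a68 a69 a70 a71 : K) : x 67 t * W a36 a37 a38 a39 a40 a41 a42 a43 a44 a45 a46 a47 a48 a49 a50 a51 a52 a53 a54 a55 a56 a57 a58 a59 a60 a61 a62 a63 a64 a65 a66 a67 a68 a69 a70 a71 = W (a36) (a37) (a38) (a39) (a40) (a41) (a42) (a43) (a44) (a45) (a46) (a47) (a48) (a49) (a50) (a51) (a52) (a53) (a54) (a55) (a56) (a57) (a58) (a59) (a60) (a61) (a62) (a63) (a64) (a65) (a66) (a67 + t) (a68 + a36*t) (a69 + a38*t + a36*a37*t) (a70 + a41*t + a36*a40*t + a38*a39*t + a36*a37*a39*t) (a71 + a49*t + a36*a48*t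 + a38*a47*t + a41*a46*t + a36*a37*a47*t + a36*a40*a46*t + a38*a39*a46*t + a36*a37*a39*a46*t) := by
  rw [x_W_67, W_mul]
  apply W_congr <;> ring1

theorem x_W_68 (t : K) : x 68 t = W 0 0 0 0 0 0 0 0 0 0 0 0 0 0 0 0 0 0 0 0 0 0 0 0 0 0 0 0 0 0 0 0 t 0 0 0 := by
  unfold W
  simp only [x_zero, one_mul, mul_one]

theorem xW_68 (t a36 a37 a38 a39 a40 a41 a42 a43 a44 a45 a46 a47 a48 a49 a50 a51 a52 a53 a54 a55 a56 a57 a58 a59 a60 a61 a62 a63 a64 a65 a66 a67 a68 a69 a70 a71 : K) : x 68 t * W a36 a37 a38 a39 a40 a41 a42 a43 a44 a45 a46 a47 a48 a49 a50 a51 a52 a53 a54 a55 a56 a57 a58 a59 a60 a61 a62 a63 a64 a65 a66 a67 a68 a69 a70 a71 = W (a36) (a37) (a38) (a39) (a40) (a41) (a42) (a43) (a44) (a45) (a46) (a47) (a48) (a49) (a50) (a51) (a52) (a53) (a54) (a55) (a56) (a57) (a58) (a59) (a60) (a61) (a62) (a63) (a64) (a65) (a66) (a67) (a68 + t) (a69 + a37*t)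 (a70 + a40*t + a37*a39*t) (a71 + a48*t + a37*a47*t + a40*a46*t + a37*a39*a46*t) := by
  rw [x_W_68, W_mul]
  apply W_congr <;> ring1

theorem x_W_69 (t : K) : x 69 t = W 0 0 0 0 0 0 0 0 0 0 0 0 0 0 0 0 0 0 0 0 0 0 0 0 0 0 0 0 0 0 0 0 0 t 0 0 := by
  unfold W
  simp only [x_zero, one_mul, mul_one]

theorem xW_69 (t a36 a37 a38 a39 a40 a41 a42 a43 a44 a45 a46 a47 a48 a49 a50 a51 a52 a53 a54 a55 a56 a57 a58 a59 a60 a61 a62 a63 a64 a65 a66 a67 a68 a69 a70 a71 : K) : x 69 t * W a36 a37 a38 a39 a40 a41 a42 a43 a44 a45 a46 a47 a48 a49 a50 a51 a52 a53 a54 a55 a56 a57 a58 a59 a60 a61 a62 a63 a64 a65 a66 a67 a68 a69 a70 a71 = W (a36) (a37) (a38) (a39) (a40) (a41) (a42) (a43) (a44) (a45) (a46) (a47) (a48) (a49) (a50) (a51) (a52) (a53) (a54) (a55) (a56) (a57) (a58) (a59) (a60) (a61) (a62) (a63) (a64) (a65) (a66) (a67) (a68) (a69 + t) (a70 + a39*t) (a71 +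 a47*t + a39*a46*t) := by
  rw [x_W_69, W_mul]
  apply W_congr <;> ring1

theorem x_W_70 (t : K) : x 70 t = W 0 0 0 0 0 0 0 0 0 0 0 0 0 0 0 0 0 0 0 0 0 0 0 0 0 0 0 0 0 0 0 0 0 0 t 0 := by
  unfold W
  simp only [x_zero, one_mul, mul_one]

theorem xW_70 (t a36 a37 a38 a39 a40 a41 a42 a43 a44 a45 a46 a47 a48 a49 a50 a51 a52 a53 a54 a55 a56 a57 a58 a59 a60 a61 a62 a63 a64 a65 a66 a67 a68 a69 a70 a71 : K) : x 70 t * W a36 a37 a38 a39 a40 a41 a42 a43 a44 a45 a46 a47 a48 a49 a50 a51 a52 a53 a54 a55 a56 a57 a58 a59 a60 a61 a62 a63 a64 a65 a66 a67 a68 a69 a70 a71 = W (a36) (a37) (a38) (a39) (a40) (a41) (a42) (a43) (a44) (a45) (a46) (a47) (a48) (a49) (a50) (a51) (a52) (a53) (a54) (a55) (a56) (a57) (a58) (a59) (a60) (a61) (a62) (a63) (a64) (a65) (a66) (a67) (a68) (a69) (a70 + t) (a71 + a46*t) := by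
  rw [x_W_70, W_mul]
  apply W_congr <;> ring1

theorem x_W_71 (t : K) : x 71 t = W 0 0 0 0 0 0 0 0 0 0 0 0 0 0 0 0 0 0 0 0 0 0 0 0 0 0 0 0 0 0 0 0 0 0 0 t := by
  unfold W
  simp only [x_zero, one_mul, mul_one]

theorem xW_71 (t a36 a37 a38 a39 a40 a41 a42 a43 a44 a45 a46 a47 a48 a49 a50 a51 a52 a53 a54 a55 a56 a57 a58 a59 a60 a61 a62 a63 a64 a65 a66 a67 a68 a69 a70 a71 : K) : x 71 t * W a36 a37 a38 a39 a40 a41 a42 a43 a44 a45 a46 a47 a48 a49 a50 a51 a52 a53 a54 a55 a56 a57 a58 a59 a60 a61 a62 a63 a64 a65 a66 a67 a68 a69 a70 a71 = W (a36) (a37) (a38) (a39) (a40) (a41) (a42) (a43) (a44) (a45) (a46) (a47) (a48) (a49) (a50) (a51) (a52) (a53) (a54) (a55) (a56) (a57) (a58) (a59) (a60) (a61) (a62) (a63) (a64) (a65) (a66) (a67) (a68) (a69) (a70) (a71 + t) := by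
  rw [x_W_71, W_mul]
  apply W_congr <;> ring1


end XW

section Res

variable {K : Type*} [Field K] [CharP K 2] [Fintype K] (f : K ≃+* K)

/-- The involution is conjugate to one of the three representatives. -/
def Res (g : GL chevE6.Idx K) : Prop :=
  Cj f g (E f 0 0 0 0 0 0 0 0 0 0 0 0 0 0 0 0 0 0 0 0 0 0 0 (1)) ∨ Cj f g (E f 0 0 0 0 0 0 0 0 0 0 0 0 0 0 0 0 0 0 0 0 (1) 0 0 0) ∨ Cj f g (E f 0 0 0 0 0 0 0 0 0 0 0 0 0 0 0 0 (1) 0 0 (1) 0 0 0 0)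

theorem Res.of_cj {u v : GL chevE6.Idx K} (c : Cj f u v) (h : Res f v) : Res f u := by
  rcases h with h | h | h
  · exact Or.inl (c.trans f h)
  · exact Or.inr (Or.inl (c.trans f h))
  · exact Or.inr (Or.inr (c.trans f h))

section FieldLemmas

variable {f}

theorem exists_sqrt (t : K) : ∃ u, u * u = t := by
  have h : Function.Surjective (frobenius K 2) := Finite.surjective_of_injective (frobenius K 2).injective
  obtain ⟨u, hu⟩ := h t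
  exact ⟨u, by rw [← hu, frobenius_def, sq]⟩

theorem sq_inj {u v : K} (h : u * u = v * v) : u = v := by
  have h2 : (2 : K) = 0 := CharTwo.two_eq_zero
  have h3 : (u + v) * (u + v) = 0 := by linear_combination h + (u * v + v * v) * h2
  have h4 : u + v = 0 := by
    rcases mul_eq_zero.1 h3 with h5 | h5 <;> exact h5
  have h5 : u = -v := by linear_combination h4
  rw [h5, CharTwo.neg_eq]

theorem fix_sqrt {u : K} (h : f (u * u) = u * u) : f u = u := by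
  apply sq_inj
  rw [← map_mul, h]

theorem solve_sqrt {c z : K} (hc : c ≠ 0) (h1 : f c = c) (h2 : f z = z) : ∃ w, f w = w ∧ z = c * (w * w) := by
  obtain ⟨w, hw⟩ := exists_sqrt (z / c)
  refine ⟨w, fix_sqrt (f := f) ?_, ?_⟩
  · rw [hw, map_div₀, h1, h2]
  · rw [hw]
    field_simp

end FieldLemmas

theorem Cj.refl (u : GL chevE6.Idx K) : Cj f u u := ⟨1, one_mem _, by simp⟩

theorem Res.t1 : Res f (E f 0 0 0 0 0 0 0 0 0 0 0 0 0 0 0 0 0 0 0 0 0 0 0 (1)) := Or.inl (Cj.refl f _)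

theorem Res.t2 : Res f (E f 0 0 0 0 0 0 0 0 0 0 0 0 0 0 0 0 0 0 0 0 (1) 0 0 0) := Or.inr (Or.inl (Cj.refl f _))

theorem Res.t3 : Res f (E f 0 0 0 0 0 0 0 0 0 0 0 0 0 0 0 0 (1) 0 0 (1) 0 0 0 0) := Or.inr (Or.inr (Cj.refl f _))

end Res

end Cfsg.Agent.Lib.E6Inv50
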