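import Cfsg.Agent.Lib.E6Inv50F

/-!
# The involutions of `²E₆(q)`, `q` even: reduction chains
-/

set_option autoImplicit false
set_option linter.unusedSectionVars false
set_option linter.unusedVariables false
set_option linter.unusedSimpArgs false
set_option maxRecDepth 100000
set_option maxHeartbeats 4000000
set_option linter.unusedTactic false
set_option linter.unreachableTactic false

namespace Cfsg.Agent.Lib.E6Inv50

open Cfsg Cfsg.Lie Cfsg.Agent.Lib.Chev Cfsg.Agent.Lib.Chev.TwE6

variable {K : Type*} [Field K] [CharP K 2] [Fintype K] {f : K ≃+* K}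

theorem AC_1_1_1_1_1_1 {t71 : K} (d : Dt f) (hp71 : t71 ≠ 0) (hm : E f 0 0 0 0 0 0 0 0 0 0 0 0 0 0 0 0 0 0 0 0 0 0 0 (t71) ∈ (sc f).G1) (hs : E f 0 0 0 0 0 0 0 0 0 0 0 0 0 0 0 0 0 0 0 0 0 0 0 (t71) * E f 0 0 0 0 0 0 0 0 0 0 0 0 0 0 0 0 0 0 0 0 0 0 0 (t71) = 1) : Res f (E f 0 0 0 0 0 0 0 0 0 0 0 0 0 0 0 0 0 0 0 0 0 0 0 (t71)) := by
  exact D0 d hp71 hm hs

theorem st_AC_1_1_1_1_1_2 {l41 t71 y : K} (hff : ∀ t, f (f t) = t) (it71 : f t71 = t71) :
    E f 0 0 (y) 0 0 0 0 0 0 0 0 0 0 0 0 0 0 0 0 0 0 0 0 0 * E f 0 0 0 0 0 (l41) 0 0 0 0 0 0 0 0 0 0 0 0 0 0 0 0 0 (t71) = E f 0 0 0 0 0 (l41) 0 0 0 0 0 0 0 0 0 0 0 (l41*(f y) + y*(f l41)) 0 0 0 0 0 (t71) * E f 0 0 (y) 0 0 0 0 0 0 0 0 0 0 0 0 0 0 0 0 0 0 0 0 0 := by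
  have h2 : (2 : K) = 0 := CharTwo.two_eq_zero
  unfold E
  rw [W_mul, W_mul]
  apply W_congr
  · (try simp only [map_add, map_mul, map_pow, map_zero, map_one, hff, it71]) <;> linear_combination (0 : K) * h2
  · (try simp only [map_add, map_mul, map_pow, map_zero, map_one, hff, it71]) <;> linear_combination (0 : K) * h2
  · (try simp only [map_add, map_mul, map_pow, map_zero, map_one, hff, it71]) <;> linear_combination (0 : K) * h2
  · (try simp only [map_add, map_mul, map_pow, map_zero, map_one, hff, it71]) <;> linear_combination (0 : K) * h2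
  · (try simp only [map_add, map_mul, map_pow, map_zero, map_one, hff, it71]) <;> linear_combination (0 : K) * h2
  · (try simp only [map_add, map_mul, map_pow, map_zero, map_one, hff, it71]) <;> linear_combination (0 : K) * h2
  · (try simp only [map_add, map_mul, map_pow, map_zero, map_one, hff, it71]) <;> linear_combination (0 : K) * h2
  · (try simp only [map_add, map_mul, map_pow, map_zero, map_one, hff, it71]) <;> linear_combination (0 : K) * h2
  · (try simp only [map_add, map_mul, map_pow, map_zero, map_one, hff, it71]) <;> linear_combination (0 : K) * h2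
  · (try simp only [map_add, map_mul, map_pow, map_zero, map_one, hff, it71]) <;> linear_combination (0 : K) * h2
  · (try simp only [map_add, map_mul, map_pow, map_zero, map_one, hff, it71]) <;> linear_combination (0 : K) * h2
  · (try simp only [map_add, map_mul, map_pow, map_zero, map_one, hff, it71]) <;> linear_combination (0 : K) * h2
  · (try simp only [map_add, map_mul, map_pow, map_zero, map_one, hff, it71]) <;> linear_combination (0 : K) * h2
  · (try simp only [map_add, map_mul, map_pow, map_zero, map_one, hff, it71]) <;> linear_combination (0 : K) * h2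
  · (try simp only [map_add, map_mul, map_pow, map_zero, map_one, hff, it71]) <;> linear_combination (0 : K) * h2
  · (try simp only [map_add, map_mul, map_pow, map_zero, map_one, hff, it71]) <;> linear_combination (0 : K) * h2
  · (try simp only [map_add, map_mul, map_pow, map_zero, map_one, hff, it71]) <;> linear_combination (0 : K) * h2
  · (try simp only [map_add, map_mul, map_pow, map_zero, map_one, hff, it71]) <;> linear_combination (0 : K) * h2
  · (try simp only [map_add, map_mul, map_pow, map_zero, map_one, hff, it71]) <;> linear_combination (0 : K) * h2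
  · (try simp only [map_add, map_mul, map_pow, map_zero, map_one, hff, it71]) <;> linear_combination (0 : K) * h2
  · (try simp only [map_add, map_mul, map_pow, map_zero, map_one, hff, it71]) <;> linear_combination (0 : K) * h2
  · (try simp only [map_add, map_mul, map_pow, map_zero, map_one, hff, it71]) <;> linear_combination (0 : K) * h2
  · (try simp only [map_add, map_mul, map_pow, map_zero, map_one, hff, it71]) <;> linear_combination (0 : K) * h2
  · (try simp only [map_add, map_mul, map_pow, map_zero, map_one, hff, it71]) <;> linear_combination (0 : K) * h2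
  · (try simp only [map_add, map_mul, map_pow, map_zero, map_one, hff, it71]) <;> linear_combination (-y*(f l41)) * h2
  · (try simp only [map_add, map_mul, map_pow, map_zero, map_one, hff, it71]) <;> linear_combination (0 : K) * h2
  · (try simp only [map_add, map_mul, map_pow, map_zero, map_one, hff, it71]) <;> linear_combination (0 : K) * h2
  · (try simp only [map_add, map_mul, map_pow, map_zero, map_one, hff, it71]) <;> linear_combination (0 : K) * h2
  · (try simp only [map_add, map_mul, map_pow, map_zero, map_one, hff, it71]) <;> linear_combination (0 : K) * h2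
  · (try simp only [map_add, map_mul, map_pow, map_zero, map_one, hff, it71]) <;> linear_combination (0 : K) * h2
  · (try simp only [map_add, map_mul, map_pow, map_zero, map_one, hff, it71]) <;> linear_combination (0 : K) * h2
  · (try simp only [map_add, map_mul, map_pow, map_zero, map_one, hff, it71]) <;> linear_combination (0 : K) * h2
  · (try simp only [map_add, map_mul, map_pow, map_zero, map_one, hff, it71]) <;> linear_combination (0 : K) * h2
  · (try simp only [map_add, map_mul, map_pow, map_zero, map_one, hff, it71]) <;> linear_combination (0 : K) * h2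
  · (try simp only [map_add, map_mul, map_pow, map_zero, map_one, hff, it71]) <;> linear_combination (0 : K) * h2
  · (try simp only [map_add, map_mul, map_pow, map_zero, map_one, hff, it71]) <;> linear_combination (0 : K) * h2

theorem nE_AC_1_1_2 {l40 l41 l45 t60 t71 : K} (hff : ∀ t, f (f t) = t) (it60 : f t60 = t60) (it71 : f t71 = t71) :
    nR [3] * E f 0 0 0 0 (l40) (l41) 0 (l45) 0 0 0 0 0 0 0 0 0 (t60) 0 0 0 0 0 (t71) * (nR [3])⁻¹ = E f 0 0 0 0 (l41) (l40) (t60) ((f l45)) 0 0 0 0 0 0 0 0 0 0 0 0 0 0 0 (t71) := by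
  have h2 : (2 : K) = 0 := CharTwo.two_eq_zero
  have c40 := fun t : K => nR_at (l := [3]) (s := 40) (m := 41) (by decide +kernel) t
  have c41 := fun t : K => nR_at (l := [3]) (s := 41) (m := 40) (by decide +kernel) t
  have c43 := fun t : K => nR_at (l := [3]) (s := 43) (m := 58) (by decide +kernel) t
  have c45 := fun t : K => nR_at (l := [3]) (s := 45) (m := 59) (by decide +kernel) t
  have c58 := fun t : K => nR_at (l := [3]) (s := 58) (m := 43) (by decide +kernel) t
  have c59 := fun t : K => nR_at (l := [3]) (s := 59) (m := 45) (by decide +kernel) t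
  have c60 := fun t : K => nR_at (l := [3]) (s := 60) (m := 44) (by decide +kernel) t
  have c71 := fun t : K => nR_at (l := [3]) (s := 71) (m := 71) (by decide +kernel) t
  unfold E
  rw [conj_W]
  simp only [map_zero, zero_mul, mul_zero, add_zero, zero_add, conj_x0, one_mul, c40, c41, c43, c45, c58, c59, c60, c71]
  rw [← W_zero (K := K)]
  simp only [xW_40, xW_41, xW_43, xW_44, xW_45, xW_58, xW_59, xW_71, zero_mul, mul_zero, add_zero, zero_add]
  first
    | done
    | apply W_congr
      · (try simp only [map_add, map_mul, map_pow, map_zero, map_one, hff, it60, it71]) <;> linear_combination (0 : K) * h2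
      · (try simp only [map_add, map_mul, map_pow, map_zero, map_one, hff, it60, it71]) <;> linear_combination (0 : K) * h2
      · (try simp only [map_add, map_mul, map_pow, map_zero, map_one, hff, it60, it71]) <;> linear_combination (0 : K) * h2
      · (try simp only [map_add, map_mul, map_pow, map_zero, map_one, hff, it60, it71]) <;> linear_combination (0 : K) * h2
      · (try simp only [map_add, map_mul, map_pow, map_zero, map_one, hff, it60, it71]) <;> linear_combination (0 : K) * h2
      · (try simp only [map_add, map_mul, map_pow, map_zero, map_one, hff, it60, it71]) <;> linear_combination (0 : K) * h2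
      · (try simp only [map_add, map_mul, map_pow, map_zero, map_one, hff, it60, it71]) <;> linear_combination (0 : K) * h2
      · (try simp only [map_add, map_mul, map_pow, map_zero, map_one, hff, it60, it71]) <;> linear_combination (0 : K) * h2
      · (try simp only [map_add, map_mul, map_pow, map_zero, map_one, hff, it60, it71]) <;> linear_combination (0 : K) * h2
      · (try simp only [map_add, map_mul, map_pow, map_zero, map_one, hff, it60, it71]) <;> linear_combination (0 : K) * h2
      · (try simp only [map_add, map_mul, map_pow, map_zero, map_one, hff, it60, it71]) <;> linear_combination (0 : K) * h2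
      · (try simp only [map_add, map_mul, map_pow, map_zero, map_one, hff, it60, it71]) <;> linear_combination (0 : K) * h2
      · (try simp only [map_add, map_mul, map_pow, map_zero, map_one, hff, it60, it71]) <;> linear_combination (0 : K) * h2
      · (try simp only [map_add, map_mul, map_pow, map_zero, map_one, hff, it60, it71]) <;> linear_combination (0 : K) * h2
      · (try simp only [map_add, map_mul, map_pow, map_zero, map_one, hff, it60, it71]) <;> linear_combination (0 : K) * h2
      · (try simp only [map_add, map_mul, map_pow, map_zero, map_one, hff, it60, it71]) <;> linear_combination (0 : K) * h2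
      · (try simp only [map_add, map_mul, map_pow, map_zero, map_one, hff, it60, it71]) <;> linear_combination (0 : K) * h2
      · (try simp only [map_add, map_mul, map_pow, map_zero, map_one, hff, it60, it71]) <;> linear_combination (0 : K) * h2
      · (try simp only [map_add, map_mul, map_pow, map_zero, map_one, hff, it60, it71]) <;> linear_combination (0 : K) * h2
      · (try simp only [map_add, map_mul, map_pow, map_zero, map_one, hff, it60, it71]) <;> linear_combination (0 : K) * h2
      · (try simp only [map_add, map_mul, map_pow, map_zero, map_one, hff, it60, it71]) <;> linear_combination (0 : K) * h2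
      · (try simp only [map_add, map_mul, map_pow, map_zero, map_one, hff, it60, it71]) <;> linear_combination (0 : K) * h2
      · (try simp only [map_add, map_mul, map_pow, map_zero, map_one, hff, it60, it71]) <;> linear_combination (0 : K) * h2
      · (try simp only [map_add, map_mul, map_pow, map_zero, map_one, hff, it60, it71]) <;> linear_combination (0 : K) * h2
      · (try simp only [map_add, map_mul, map_pow, map_zero, map_one, hff, it60, it71]) <;> linear_combination (0 : K) * h2
      · (try simp only [map_add, map_mul, map_pow, map_zero, map_one, hff, it60, it71]) <;> linear_combination (0 : K) * h2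
      · (try simp only [map_add, map_mul, map_pow, map_zero, map_one, hff, it60, it71]) <;> linear_combination (0 : K) * h2
      · (try simp only [map_add, map_mul, map_pow, map_zero, map_one, hff, it60, it71]) <;> linear_combination (0 : K) * h2
      · (try simp only [map_add, map_mul, map_pow, map_zero, map_one, hff, it60, it71]) <;> linear_combination (0 : K) * h2
      · (try simp only [map_add, map_mul, map_pow, map_zero, map_one, hff, it60, it71]) <;> linear_combination (0 : K) * h2
      · (try simp only [map_add, map_mul, map_pow, map_zero, map_one, hff, it60, it71]) <;> linear_combination (0 : K) * h2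
      · (try simp only [map_add, map_mul, map_pow, map_zero, map_one, hff, it60, it71]) <;> linear_combination (0 : K) * h2
      · (try simp only [map_add, map_mul, map_pow, map_zero, map_one, hff, it60, it71]) <;> linear_combination (0 : K) * h2
      · (try simp only [map_add, map_mul, map_pow, map_zero, map_one, hff, it60, it71]) <;> linear_combination (0 : K) * h2
      · (try simp only [map_add, map_mul, map_pow, map_zero, map_one, hff, it60, it71]) <;> linear_combination (0 : K) * h2
      · (try simp only [map_add, map_mul, map_pow, map_zero, map_one, hff, it60, it71]) <;> linear_combination (0 : K) * h2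

theorem nE_AC_1_2 {l40 l41 l45 t44 t60 t71 : K} (hff : ∀ t, f (f t) = t) (it44 : f t44 = t44) (it60 : f t60 = t60) (it71 : f t71 = t71) :
    nR [2] * E f 0 0 0 0 (l40) (l41) (t44) (l45) 0 0 0 0 0 0 0 0 0 (t60) 0 0 0 0 0 (t71) * (nR [2])⁻¹ = E f 0 0 0 (t44) ((f l40)) (l45) 0 (l41) 0 0 0 0 0 0 0 0 0 (t60) 0 0 0 0 0 (t71) := by
  have h2 : (2 : K) = 0 := CharTwo.two_eq_zero
  have c40 := fun t : K => nR_at (l := [2]) (s := 40) (m := 43) (by decide +kernel) t
  have c41 := fun t : K => nR_at (l := [2]) (s := 41) (m := 45) (by decide +kernel) t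
  have c43 := fun t : K => nR_at (l := [2]) (s := 43) (m := 40) (by decide +kernel) t
  have c44 := fun t : K => nR_at (l := [2]) (s := 44) (m := 39) (by decide +kernel) t
  have c45 := fun t : K => nR_at (l := [2]) (s := 45) (m := 41) (by decide +kernel) t
  have c58 := fun t : K => nR_at (l := [2]) (s := 58) (m := 59) (by decide +kernel) t
  have c59 := fun t : K => nR_at (l := [2]) (s := 59) (m := 58) (by decide +kernel) t
  have c60 := fun t : K => nR_at (l := [2]) (s := 60) (m := 60) (by decide +kernel) t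
  have c71 := fun t : K => nR_at (l := [2]) (s := 71) (m := 71) (by decide +kernel) t
  unfold E
  rw [conj_W]
  simp only [map_zero, zero_mul, mul_zero, add_zero, zero_add, conj_x0, one_mul, c40, c41, c43, c44, c45, c58, c59, c60, c71]
  rw [← W_zero (K := K)]
  simp only [xW_39, xW_40, xW_41, xW_43, xW_45, xW_58, xW_59, xW_60, xW_71, zero_mul, mul_zero, add_zero, zero_add]
  first
    | done
    | apply W_congr
      · (try simp only [map_add, map_mul, map_pow, map_zero, map_one, hff, it44, it60, it71]) <;> linear_combination (0 : K) * h2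
      · (try simp only [map_add, map_mul, map_pow, map_zero, map_one, hff, it44, it60, it71]) <;> linear_combination (0 : K) * h2
      · (try simp only [map_add, map_mul, map_pow, map_zero, map_one, hff, it44, it60, it71]) <;> linear_combination (0 : K) * h2
      · (try simp only [map_add, map_mul, map_pow, map_zero, map_one, hff, it44, it60, it71]) <;> linear_combination (0 : K) * h2
      · (try simp only [map_add, map_mul, map_pow, map_zero, map_one, hff, it44, it60, it71]) <;> linear_combination (0 : K) * h2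
      · (try simp only [map_add, map_mul, map_pow, map_zero, map_one, hff, it44, it60, it71]) <;> linear_combination (0 : K) * h2
      · (try simp only [map_add, map_mul, map_pow, map_zero, map_one, hff, it44, it60, it71]) <;> linear_combination (0 : K) * h2
      · (try simp only [map_add, map_mul, map_pow, map_zero, map_one, hff, it44, it60, it71]) <;> linear_combination (0 : K) * h2
      · (try simp only [map_add, map_mul, map_pow, map_zero, map_one, hff, it44, it60, it71]) <;> linear_combination (0 : K) * h2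
      · (try simp only [map_add, map_mul, map_pow, map_zero, map_one, hff, it44, it60, it71]) <;> linear_combination (0 : K) * h2
      · (try simp only [map_add, map_mul, map_pow, map_zero, map_one, hff, it44, it60, it71]) <;> linear_combination (0 : K) * h2
      · (try simp only [map_add, map_mul, map_pow, map_zero, map_one, hff, it44, it60, it71]) <;> linear_combination (0 : K) * h2
      · (try simp only [map_add, map_mul, map_pow, map_zero, map_one, hff, it44, it60, it71]) <;> linear_combination (0 : K) * h2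
      · (try simp only [map_add, map_mul, map_pow, map_zero, map_one, hff, it44, it60, it71]) <;> linear_combination (0 : K) * h2
      · (try simp only [map_add, map_mul, map_pow, map_zero, map_one, hff, it44, it60, it71]) <;> linear_combination (0 : K) * h2
      · (try simp only [map_add, map_mul, map_pow, map_zero, map_one, hff, it44, it60, it71]) <;> linear_combination (0 : K) * h2
      · (try simp only [map_add, map_mul, map_pow, map_zero, map_one, hff, it44, it60, it71]) <;> linear_combination (0 : K) * h2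
      · (try simp only [map_add, map_mul, map_pow, map_zero, map_one, hff, it44, it60, it71]) <;> linear_combination (0 : K) * h2
      · (try simp only [map_add, map_mul, map_pow, map_zero, map_one, hff, it44, it60, it71]) <;> linear_combination (0 : K) * h2
      · (try simp only [map_add, map_mul, map_pow, map_zero, map_one, hff, it44, it60, it71]) <;> linear_combination (0 : K) * h2
      · (try simp only [map_add, map_mul, map_pow, map_zero, map_one, hff, it44, it60, it71]) <;> linear_combination (0 : K) * h2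
      · (try simp only [map_add, map_mul, map_pow, map_zero, map_one, hff, it44, it60, it71]) <;> linear_combination (0 : K) * h2
      · (try simp only [map_add, map_mul, map_pow, map_zero, map_one, hff, it44, it60, it71]) <;> linear_combination (0 : K) * h2
      · (try simp only [map_add, map_mul, map_pow, map_zero, map_one, hff, it44, it60, it71]) <;> linear_combination (0 : K) * h2
      · (try simp only [map_add, map_mul, map_pow, map_zero, map_one, hff, it44, it60, it71]) <;> linear_combination (0 : K) * h2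
      · (try simp only [map_add, map_mul, map_pow, map_zero, map_one, hff, it44, it60, it71]) <;> linear_combination (0 : K) * h2
      · (try simp only [map_add, map_mul, map_pow, map_zero, map_one, hff, it44, it60, it71]) <;> linear_combination (0 : K) * h2
      · (try simp only [map_add, map_mul, map_pow, map_zero, map_one, hff, it44, it60, it71]) <;> linear_combination (0 : K) * h2
      · (try simp only [map_add, map_mul, map_pow, map_zero, map_one, hff, it44, it60, it71]) <;> linear_combination (0 : K) * h2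
      · (try simp only [map_add, map_mul, map_pow, map_zero, map_one, hff, it44, it60, it71]) <;> linear_combination (0 : K) * h2
      · (try simp only [map_add, map_mul, map_pow, map_zero, map_one, hff, it44, it60, it71]) <;> linear_combination (0 : K) * h2
      · (try simp only [map_add, map_mul, map_pow, map_zero, map_one, hff, it44, it60, it71]) <;> linear_combination (0 : K) * h2
      · (try simp only [map_add, map_mul, map_pow, map_zero, map_one, hff, it44, it60, it71]) <;> linear_combination (0 : K) * h2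
      · (try simp only [map_add, map_mul, map_pow, map_zero, map_one, hff, it44, it60, it71]) <;> linear_combination (0 : K) * h2
      · (try simp only [map_add, map_mul, map_pow, map_zero, map_one, hff, it44, it60, it71]) <;> linear_combination (0 : K) * h2
      · (try simp only [map_add, map_mul, map_pow, map_zero, map_one, hff, it44, it60, it71]) <;> linear_combination (0 : K) * h2

theorem st_AC_2 {l41 l45 t39 t44 t60 t71 y : K} (hff : ∀ t, f (f t) = t) (it39 : f t39 = t39) (it44 : f t44 = t44) (it60 : f t60 = t60) (it71 : f t71 = t71) :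
    E f 0 (y) 0 0 0 0 0 0 0 0 0 0 0 0 0 0 0 0 0 0 0 0 0 0 * E f 0 0 0 (t39) ((t39) * y) (l41) (t44) (l45) 0 0 0 0 0 0 0 0 0 (t60) 0 0 0 0 0 (t71) = E f 0 0 0 (t39) 0 (l41) (t44 + t39*y*(f y)) (l45 + l41*(f y)) 0 0 0 0 0 0 0 0 0 (t60) 0 0 0 0 0 (t71) * E f 0 (y) 0 0 0 0 0 0 0 0 0 0 0 0 0 0 0 0 0 0 0 0 0 0 := by
  have h2 : (2 : K) = 0 := CharTwo.two_eq_zero
  unfold E
  rw [W_mul, W_mul]
  apply W_congr
  · (try simp only [map_add, map_mul, map_pow, map_zero, map_one, hff, it39, it44, it60, it71]) <;> linear_combination (0 : K) * h2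
  · (try simp only [map_add, map_mul, map_pow, map_zero, map_one, hff, it39, it44, it60, it71]) <;> linear_combination (0 : K) * h2
  · (try simp only [map_add, map_mul, map_pow, map_zero, map_one, hff, it39, it44, it60, it71]) <;> linear_combination (0 : K) * h2
  · (try simp only [map_add, map_mul, map_pow, map_zero, map_one, hff, it39, it44, it60, it71]) <;> linear_combination (0 : K) * h2
  · (try simp only [map_add, map_mul, map_pow, map_zero, map_one, hff, it39, it44, it60, it71]) <;> linear_combination (0 : K) * h2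
  · (try simp only [map_add, map_mul, map_pow, map_zero, map_one, hff, it39, it44, it60, it71]) <;> linear_combination (0 : K) * h2
  · (try simp only [map_add, map_mul, map_pow, map_zero, map_one, hff, it39, it44, it60, it71]) <;> linear_combination (0 : K) * h2
  · (try simp only [map_add, map_mul, map_pow, map_zero, map_one, hff, it39, it44, it60, it71]) <;> linear_combination (t39*(f y)) * h2
  · (try simp only [map_add, map_mul, map_pow, map_zero, map_one, hff, it39, it44, it60, it71]) <;> linear_combination (0 : K) * h2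
  · (try simp only [map_add, map_mul, map_pow, map_zero, map_one, hff, it39, it44, it60, it71]) <;> linear_combination (0 : K) * h2
  · (try simp only [map_add, map_mul, map_pow, map_zero, map_one, hff, it39, it44, it60, it71]) <;> linear_combination (0 : K) * h2
  · (try simp only [map_add, map_mul, map_pow, map_zero, map_one, hff, it39, it44, it60, it71]) <;> linear_combination (0 : K) * h2
  · (try simp only [map_add, map_mul, map_pow, map_zero, map_one, hff, it39, it44, it60, it71]) <;> linear_combination (0 : K) * h2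
  · (try simp only [map_add, map_mul, map_pow, map_zero, map_one, hff, it39, it44, it60, it71]) <;> linear_combination (0 : K) * h2
  · (try simp only [map_add, map_mul, map_pow, map_zero, map_one, hff, it39, it44, it60, it71]) <;> linear_combination (0 : K) * h2
  · (try simp only [map_add, map_mul, map_pow, map_zero, map_one, hff, it39, it44, it60, it71]) <;> linear_combination (0 : K) * h2
  · (try simp only [map_add, map_mul, map_pow, map_zero, map_one, hff, it39, it44, it60, it71]) <;> linear_combination (0 : K) * h2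
  · (try simp only [map_add, map_mul, map_pow, map_zero, map_one, hff, it39, it44, it60, it71]) <;> linear_combination (0 : K) * h2
  · (try simp only [map_add, map_mul, map_pow, map_zero, map_one, hff, it39, it44, it60, it71]) <;> linear_combination (0 : K) * h2
  · (try simp only [map_add, map_mul, map_pow, map_zero, map_one, hff, it39, it44, it60, it71]) <;> linear_combination (0 : K) * h2
  · (try simp only [map_add, map_mul, map_pow, map_zero, map_one, hff, it39, it44, it60, it71]) <;> linear_combination (0 : K) * h2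
  · (try simp only [map_add, map_mul, map_pow, map_zero, map_one, hff, it39, it44, it60, it71]) <;> linear_combination (0 : K) * h2
  · (try simp only [map_add, map_mul, map_pow, map_zero, map_one, hff, it39, it44, it60, it71]) <;> linear_combination (0 : K) * h2
  · (try simp only [map_add, map_mul, map_pow, map_zero, map_one, hff, it39, it44, it60, it71]) <;> linear_combination (-y*(f l41)) * h2
  · (try simp only [map_add, map_mul, map_pow, map_zero, map_one, hff, it39, it44, it60, it71]) <;> linear_combination (0 : K) * h2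
  · (try simp only [map_add, map_mul, map_pow, map_zero, map_one, hff, it39, it44, it60, it71]) <;> linear_combination (0 : K) * h2
  · (try simp only [map_add, map_mul, map_pow, map_zero, map_one, hff, it39, it44, it60, it71]) <;> linear_combination (0 : K) * h2
  · (try simp only [map_add, map_mul, map_pow, map_zero, map_one, hff, it39, it44, it60, it71]) <;> linear_combination (0 : K) * h2
  · (try simp only [map_add, map_mul, map_pow, map_zero, map_one, hff, it39, it44, it60, it71]) <;> linear_combination (0 : K) * h2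
  · (try simp only [map_add, map_mul, map_pow, map_zero, map_one, hff, it39, it44, it60, it71]) <;> linear_combination (0 : K) * h2
  · (try simp only [map_add, map_mul, map_pow, map_zero, map_one, hff, it39, it44, it60, it71]) <;> linear_combination (0 : K) * h2
  · (try simp only [map_add, map_mul, map_pow, map_zero, map_one, hff, it39, it44, it60, it71]) <;> linear_combination (0 : K) * h2
  · (try simp only [map_add, map_mul, map_pow, map_zero, map_one, hff, it39, it44, it60, it71]) <;> linear_combination (0 : K) * h2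
  · (try simp only [map_add, map_mul, map_pow, map_zero, map_one, hff, it39, it44, it60, it71]) <;> linear_combination (0 : K) * h2
  · (try simp only [map_add, map_mul, map_pow, map_zero, map_one, hff, it39, it44, it60, it71]) <;> linear_combination (0 : K) * h2
  · (try simp only [map_add, map_mul, map_pow, map_zero, map_one, hff, it39, it44, it60, it71]) <;> linear_combination (0 : K) * h2

theorem st_AC_2_1 {l45 t39 t44 t60 t71 y : K} (hff : ∀ t, f (f t) = t) (it39 : f t39 = t39) (it44 : f t44 = t44) (it60 : f t60 = t60) (it71 : f t71 = t71) :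
    E f 0 0 (y) 0 0 0 0 0 0 0 0 0 0 0 0 0 0 0 0 0 0 0 0 0 * E f 0 0 0 (t39) 0 ((t39) * y) (t44) (l45) 0 0 0 0 0 0 0 0 0 (t60) 0 0 0 0 0 (t71) = E f 0 0 0 (t39) 0 0 (t44) (l45) 0 0 0 0 0 0 0 0 0 (t60 + t39*y*(f y)) 0 0 0 0 0 (t71) * E f 0 0 (y) 0 0 0 0 0 0 0 0 0 0 0 0 0 0 0 0 0 0 0 0 0 := by
  have h2 : (2 : K) = 0 := CharTwo.two_eq_zero
  unfold E
  rw [W_mul, W_mul]
  apply W_congr
  · (try simp only [map_add, map_mul, map_pow, map_zero, map_one, hff, it39, it44, it60, it71]) <;> linear_combination (0 : K) * h2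
  · (try simp only [map_add, map_mul, map_pow, map_zero, map_one, hff, it39, it44, it60, it71]) <;> linear_combination (0 : K) * h2
  · (try simp only [map_add, map_mul, map_pow, map_zero, map_one, hff, it39, it44, it60, it71]) <;> linear_combination (0 : K) * h2
  · (try simp only [map_add, map_mul, map_pow, map_zero, map_one, hff, it39, it44, it60, it71]) <;> linear_combination (0 : K) * h2
  · (try simp only [map_add, map_mul, map_pow, map_zero, map_one, hff, it39, it44, it60, it71]) <;> linear_combination (0 : K) * h2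
  · (try simp only [map_add, map_mul, map_pow, map_zero, map_one, hff, it39, it44, it60, it71]) <;> linear_combination (0 : K) * h2
  · (try simp only [map_add, map_mul, map_pow, map_zero, map_one, hff, it39, it44, it60, it71]) <;> linear_combination (0 : K) * h2
  · (try simp only [map_add, map_mul, map_pow, map_zero, map_one, hff, it39, it44, it60, it71]) <;> linear_combination (0 : K) * h2
  · (try simp only [map_add, map_mul, map_pow, map_zero, map_one, hff, it39, it44, it60, it71]) <;> linear_combination (0 : K) * h2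
  · (try simp only [map_add, map_mul, map_pow, map_zero, map_one, hff, it39, it44, it60, it71]) <;> linear_combination (0 : K) * h2
  · (try simp only [map_add, map_mul, map_pow, map_zero, map_one, hff, it39, it44, it60, it71]) <;> linear_combination (0 : K) * h2
  · (try simp only [map_add, map_mul, map_pow, map_zero, map_one, hff, it39, it44, it60, it71]) <;> linear_combination (0 : K) * h2
  · (try simp only [map_add, map_mul, map_pow, map_zero, map_one, hff, it39, it44, it60, it71]) <;> linear_combination (0 : K) * h2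
  · (try simp only [map_add, map_mul, map_pow, map_zero, map_one, hff, it39, it44, it60, it71]) <;> linear_combination (0 : K) * h2
  · (try simp only [map_add, map_mul, map_pow, map_zero, map_one, hff, it39, it44, it60, it71]) <;> linear_combination (0 : K) * h2
  · (try simp only [map_add, map_mul, map_pow, map_zero, map_one, hff, it39, it44, it60, it71]) <;> linear_combination (0 : K) * h2
  · (try simp only [map_add, map_mul, map_pow, map_zero, map_one, hff, it39, it44, it60, it71]) <;> linear_combination (0 : K) * h2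
  · (try simp only [map_add, map_mul, map_pow, map_zero, map_one, hff, it39, it44, it60, it71]) <;> linear_combination (0 : K) * h2
  · (try simp only [map_add, map_mul, map_pow, map_zero, map_one, hff, it39, it44, it60, it71]) <;> linear_combination (0 : K) * h2
  · (try simp only [map_add, map_mul, map_pow, map_zero, map_one, hff, it39, it44, it60, it71]) <;> linear_combination (0 : K) * h2
  · (try simp only [map_add, map_mul, map_pow, map_zero, map_one, hff, it39, it44, it60, it71]) <;> linear_combination (0 : K) * h2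
  · (try simp only [map_add, map_mul, map_pow, map_zero, map_one, hff, it39, it44, it60, it71]) <;> linear_combination (0 : K) * h2
  · (try simp only [map_add, map_mul, map_pow, map_zero, map_one, hff, it39, it44, it60, it71]) <;> linear_combination (t39*(f y)) * h2
  · (try simp only [map_add, map_mul, map_pow, map_zero, map_one, hff, it39, it44, it60, it71]) <;> linear_combination (0 : K) * h2
  · (try simp only [map_add, map_mul, map_pow, map_zero, map_one, hff, it39, it44, it60, it71]) <;> linear_combination (0 : K) * h2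
  · (try simp only [map_add, map_mul, map_pow, map_zero, map_one, hff, it39, it44, it60, it71]) <;> linear_combination (0 : K) * h2
  · (try simp only [map_add, map_mul, map_pow, map_zero, map_one, hff, it39, it44, it60, it71]) <;> linear_combination (0 : K) * h2
  · (try simp only [map_add, map_mul, map_pow, map_zero, map_one, hff, it39, it44, it60, it71]) <;> linear_combination (0 : K) * h2
  · (try simp only [map_add, map_mul, map_pow, map_zero, map_one, hff, it39, it44, it60, it71]) <;> linear_combination (0 : K) * h2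
  · (try simp only [map_add, map_mul, map_pow, map_zero, map_one, hff, it39, it44, it60, it71]) <;> linear_combination (0 : K) * h2
  · (try simp only [map_add, map_mul, map_pow, map_zero, map_one, hff, it39, it44, it60, it71]) <;> linear_combination (0 : K) * h2
  · (try simp only [map_add, map_mul, map_pow, map_zero, map_one, hff, it39, it44, it60, it71]) <;> linear_combination (0 : K) * h2
  · (try simp only [map_add, map_mul, map_pow, map_zero, map_one, hff, it39, it44, it60, it71]) <;> linear_combination (0 : K) * h2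
  · (try simp only [map_add, map_mul, map_pow, map_zero, map_one, hff, it39, it44, it60, it71]) <;> linear_combination (0 : K) * h2
  · (try simp only [map_add, map_mul, map_pow, map_zero, map_one, hff, it39, it44, it60, it71]) <;> linear_combination (0 : K) * h2
  · (try simp only [map_add, map_mul, map_pow, map_zero, map_one, hff, it39, it44, it60, it71]) <;> linear_combination (0 : K) * h2

theorem AC_2_1_1_1_1_1 {t39 t71 : K} (d : Dt f) (hp71 : t71 ≠ 0) (hp39 : t39 ≠ 0) (hm : E f 0 0 0 (t39) 0 0 0 0 0 0 0 0 0 0 0 0 0 0 0 0 0 0 0 (t71) ∈ (sc f).G1) (hs : E f 0 0 0 (t39) 0 0 0 0 0 0 0 0 0 0 0 0 0 0 0 0 0 0 0 (t71) * E f 0 0 0 (t39) 0 0 0 0 0 0 0 0 0 0 0 0 0 0 0 0 0 0 0 (t71) = 1) : Res f (E f 0 0 0 (t39) 0 0 0 0 0 0 0 0 0 0 0 0 0 0 0 0 0 0 0 (t71)) := by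
  exact D1 d hp71 hp39 hm hs

theorem st_AC_2_1_1_1_1_2 {l45 t39 t71 y : K} (hff : ∀ t, f (f t) = t) (it39 : f t39 = t39) (it71 : f t71 = t71) :
    E f (y) 0 0 0 0 0 0 0 0 0 0 0 0 0 0 0 0 0 0 0 0 0 0 0 * E f 0 0 0 (t39) 0 0 0 (l45) 0 0 0 0 0 0 0 0 0 0 0 0 0 0 0 (t71) = E f 0 0 0 (t39) 0 0 0 (l45) 0 0 0 0 0 0 0 0 0 (l45*(f y) + y*(f l45)) 0 0 0 0 0 (t71) * E f (y) 0 0 0 0 0 0 0 0 0 0 0 0 0 0 0 0 0 0 0 0 0 0 0 := by
  have h2 : (2 : K) = 0 := CharTwo.two_eq_zero
  unfold E
  rw [W_mul, W_mul]
  apply W_congr
  · (try simp only [map_add, map_mul, map_pow, map_zero, map_one, hff, it39, it71]) <;> linear_combination (0 : K) * h2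
  · (try simp only [map_add, map_mul, map_pow, map_zero, map_one, hff, it39, it71]) <;> linear_combination (0 : K) * h2
  · (try simp only [map_add, map_mul, map_pow, map_zero, map_one, hff, it39, it71]) <;> linear_combination (0 : K) * h2
  · (try simp only [map_add, map_mul, map_pow, map_zero, map_one, hff, it39, it71]) <;> linear_combination (0 : K) * h2
  · (try simp only [map_add, map_mul, map_pow, map_zero, map_one, hff, it39, it71]) <;> linear_combination (0 : K) * h2
  · (try simp only [map_add, map_mul, map_pow, map_zero, map_one, hff, it39, it71]) <;> linear_combination (0 : K) * h2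
  · (try simp only [map_add, map_mul, map_pow, map_zero, map_one, hff, it39, it71]) <;> linear_combination (0 : K) * h2
  · (try simp only [map_add, map_mul, map_pow, map_zero, map_one, hff, it39, it71]) <;> linear_combination (0 : K) * h2
  · (try simp only [map_add, map_mul, map_pow, map_zero, map_one, hff, it39, it71]) <;> linear_combination (0 : K) * h2
  · (try simp only [map_add, map_mul, map_pow, map_zero, map_one, hff, it39, it71]) <;> linear_combination (0 : K) * h2
  · (try simp only [map_add, map_mul, map_pow, map_zero, map_one, hff, it39, it71]) <;> linear_combination (0 : K) * h2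
  · (try simp only [map_add, map_mul, map_pow, map_zero, map_one, hff, it39, it71]) <;> linear_combination (0 : K) * h2
  · (try simp only [map_add, map_mul, map_pow, map_zero, map_one, hff, it39, it71]) <;> linear_combination (0 : K) * h2
  · (try simp only [map_add, map_mul, map_pow, map_zero, map_one, hff, it39, it71]) <;> linear_combination (0 : K) * h2
  · (try simp only [map_add, map_mul, map_pow, map_zero, map_one, hff, it39, it71]) <;> linear_combination (0 : K) * h2
  · (try simp only [map_add, map_mul, map_pow, map_zero, map_one, hff, it39, it71]) <;> linear_combination (0 : K) * h2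
  · (try simp only [map_add, map_mul, map_pow, map_zero, map_one, hff, it39, it71]) <;> linear_combination (0 : K) * h2
  · (try simp only [map_add, map_mul, map_pow, map_zero, map_one, hff, it39, it71]) <;> linear_combination (0 : K) * h2
  · (try simp only [map_add, map_mul, map_pow, map_zero, map_one, hff, it39, it71]) <;> linear_combination (0 : K) * h2
  · (try simp only [map_add, map_mul, map_pow, map_zero, map_one, hff, it39, it71]) <;> linear_combination (0 : K) * h2
  · (try simp only [map_add, map_mul, map_pow, map_zero, map_one, hff, it39, it71]) <;> linear_combination (0 : K) * h2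
  · (try simp only [map_add, map_mul, map_pow, map_zero, map_one, hff, it39, it71]) <;> linear_combination (0 : K) * h2
  · (try simp only [map_add, map_mul, map_pow, map_zero, map_one, hff, it39, it71]) <;> linear_combination (0 : K) * h2
  · (try simp only [map_add, map_mul, map_pow, map_zero, map_one, hff, it39, it71]) <;> linear_combination (0 : K) * h2
  · (try simp only [map_add, map_mul, map_pow, map_zero, map_one, hff, it39, it71]) <;> linear_combination (-y*(f l45)) * h2
  · (try simp only [map_add, map_mul, map_pow, map_zero, map_one, hff, it39, it71]) <;> linear_combination (0 : K) * h2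
  · (try simp only [map_add, map_mul, map_pow, map_zero, map_one, hff, it39, it71]) <;> linear_combination (0 : K) * h2
  · (try simp only [map_add, map_mul, map_pow, map_zero, map_one, hff, it39, it71]) <;> linear_combination (0 : K) * h2
  · (try simp only [map_add, map_mul, map_pow, map_zero, map_one, hff, it39, it71]) <;> linear_combination (0 : K) * h2
  · (try simp only [map_add, map_mul, map_pow, map_zero, map_one, hff, it39, it71]) <;> linear_combination (0 : K) * h2
  · (try simp only [map_add, map_mul, map_pow, map_zero, map_one, hff, it39, it71]) <;> linear_combination (0 : K) * h2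
  · (try simp only [map_add, map_mul, map_pow, map_zero, map_one, hff, it39, it71]) <;> linear_combination (0 : K) * h2
  · (try simp only [map_add, map_mul, map_pow, map_zero, map_one, hff, it39, it71]) <;> linear_combination (0 : K) * h2
  · (try simp only [map_add, map_mul, map_pow, map_zero, map_one, hff, it39, it71]) <;> linear_combination (0 : K) * h2
  · (try simp only [map_add, map_mul, map_pow, map_zero, map_one, hff, it39, it71]) <;> linear_combination (0 : K) * h2
  · (try simp only [map_add, map_mul, map_pow, map_zero, map_one, hff, it39, it71]) <;> linear_combination (0 : K) * h2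

theorem nE_AC_2_1_1_1_2 {l45 t39 t60 t71 : K} (hff : ∀ t, f (f t) = t) (it39 : f t39 = t39) (it60 : f t60 = t60) (it71 : f t71 = t71) :
    nR [3] * E f 0 0 0 (t39) 0 0 0 (l45) 0 0 0 0 0 0 0 0 0 (t60) 0 0 0 0 0 (t71) * (nR [3])⁻¹ = E f 0 0 0 (t39) 0 0 (t60) ((f l45)) 0 0 0 0 0 0 0 0 0 0 0 0 0 0 0 (t71) := by
  have h2 : (2 : K) = 0 := CharTwo.two_eq_zero
  have c39 := fun t : K => nR_at (l := [3]) (s := 39) (m := 39) (by decide +kernel) t
  have c45 := fun t : K => nR_at (l := [3]) (s := 45) (m := 59) (by decide +kernel) t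
  have c59 := fun t : K => nR_at (l := [3]) (s := 59) (m := 45) (by decide +kernel) t
  have c60 := fun t : K => nR_at (l := [3]) (s := 60) (m := 44) (by decide +kernel) t
  have c71 := fun t : K => nR_at (l := [3]) (s := 71) (m := 71) (by decide +kernel) t
  unfold E
  rw [conj_W]
  simp only [map_zero, zero_mul, mul_zero, add_zero, zero_add, conj_x0, one_mul, c39, c45, c59, c60, c71]
  rw [← W_zero (K := K)]
  simp only [xW_39, xW_44, xW_45, xW_59, xW_71, zero_mul, mul_zero, add_zero, zero_add]
  first
    | done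
    | apply W_congr
      · (try simp only [map_add, map_mul, map_pow, map_zero, map_one, hff, it39, it60, it71]) <;> linear_combination (0 : K) * h2
      · (try simp only [map_add, map_mul, map_pow, map_zero, map_one, hff, it39, it60, it71]) <;> linear_combination (0 : K) * h2
      · (try simp only [map_add, map_mul, map_pow, map_zero, map_one, hff, it39, it60, it71]) <;> linear_combination (0 : K) * h2
      · (try simp only [map_add, map_mul, map_pow, map_zero, map_one, hff, it39, it60, it71]) <;> linear_combination (0 : K) * h2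
      · (try simp only [map_add, map_mul, map_pow, map_zero, map_one, hff, it39, it60, it71]) <;> linear_combination (0 : K) * h2
      · (try simp only [map_add, map_mul, map_pow, map_zero, map_one, hff, it39, it60, it71]) <;> linear_combination (0 : K) * h2
      · (try simp only [map_add, map_mul, map_pow, map_zero, map_one, hff, it39, it60, it71]) <;> linear_combination (0 : K) * h2
      · (try simp only [map_add, map_mul, map_pow, map_zero, map_one, hff, it39, it60, it71]) <;> linear_combination (0 : K) * h2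
      · (try simp only [map_add, map_mul, map_pow, map_zero, map_one, hff, it39, it60, it71]) <;> linear_combination (0 : K) * h2
      · (try simp only [map_add, map_mul, map_pow, map_zero, map_one, hff, it39, it60, it71]) <;> linear_combination (0 : K) * h2
      · (try simp only [map_add, map_mul, map_pow, map_zero, map_one, hff, it39, it60, it71]) <;> linear_combination (0 : K) * h2
      · (try simp only [map_add, map_mul, map_pow, map_zero, map_one, hff, it39, it60, it71]) <;> linear_combination (0 : K) * h2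
      · (try simp only [map_add, map_mul, map_pow, map_zero, map_one, hff, it39, it60, it71]) <;> linear_combination (0 : K) * h2
      · (try simp only [map_add, map_mul, map_pow, map_zero, map_one, hff, it39, it60, it71]) <;> linear_combination (0 : K) * h2
      · (try simp only [map_add, map_mul, map_pow, map_zero, map_one, hff, it39, it60, it71]) <;> linear_combination (0 : K) * h2
      · (try simp only [map_add, map_mul, map_pow, map_zero, map_one, hff, it39, it60, it71]) <;> linear_combination (0 : K) * h2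
      · (try simp only [map_add, map_mul, map_pow, map_zero, map_one, hff, it39, it60, it71]) <;> linear_combination (0 : K) * h2
      · (try simp only [map_add, map_mul, map_pow, map_zero, map_one, hff, it39, it60, it71]) <;> linear_combination (0 : K) * h2
      · (try simp only [map_add, map_mul, map_pow, map_zero, map_one, hff, it39, it60, it71]) <;> linear_combination (0 : K) * h2
      · (try simp only [map_add, map_mul, map_pow, map_zero, map_one, hff, it39, it60, it71]) <;> linear_combination (0 : K) * h2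
      · (try simp only [map_add, map_mul, map_pow, map_zero, map_one, hff, it39, it60, it71]) <;> linear_combination (0 : K) * h2
      · (try simp only [map_add, map_mul, map_pow, map_zero, map_one, hff, it39, it60, it71]) <;> linear_combination (0 : K) * h2
      · (try simp only [map_add, map_mul, map_pow, map_zero, map_one, hff, it39, it60, it71]) <;> linear_combination (0 : K) * h2
      · (try simp only [map_add, map_mul, map_pow, map_zero, map_one, hff, it39, it60, it71]) <;> linear_combination (0 : K) * h2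
      · (try simp only [map_add, map_mul, map_pow, map_zero, map_one, hff, it39, it60, it71]) <;> linear_combination (0 : K) * h2
      · (try simp only [map_add, map_mul, map_pow, map_zero, map_one, hff, it39, it60, it71]) <;> linear_combination (0 : K) * h2
      · (try simp only [map_add, map_mul, map_pow, map_zero, map_one, hff, it39, it60, it71]) <;> linear_combination (0 : K) * h2
      · (try simp only [map_add, map_mul, map_pow, map_zero, map_one, hff, it39, it60, it71]) <;> linear_combination (0 : K) * h2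
      · (try simp only [map_add, map_mul, map_pow, map_zero, map_one, hff, it39, it60, it71]) <;> linear_combination (0 : K) * h2
      · (try simp only [map_add, map_mul, map_pow, map_zero, map_one, hff, it39, it60, it71]) <;> linear_combination (0 : K) * h2
      · (try simp only [map_add, map_mul, map_pow, map_zero, map_one, hff, it39, it60, it71]) <;> linear_combination (0 : K) * h2
      · (try simp only [map_add, map_mul, map_pow, map_zero, map_one, hff, it39, it60, it71]) <;> linear_combination (0 : K) * h2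
      · (try simp only [map_add, map_mul, map_pow, map_zero, map_one, hff, it39, it60, it71]) <;> linear_combination (0 : K) * h2
      · (try simp only [map_add, map_mul, map_pow, map_zero, map_one, hff, it39, it60, it71]) <;> linear_combination (0 : K) * h2
      · (try simp only [map_add, map_mul, map_pow, map_zero, map_one, hff, it39, it60, it71]) <;> linear_combination (0 : K) * h2
      · (try simp only [map_add, map_mul, map_pow, map_zero, map_one, hff, it39, it60, it71]) <;> linear_combination (0 : K) * h2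

theorem st_AC_2_1_1_2 {t39 t44 t60 t71 y : K} (hff : ∀ t, f (f t) = t) (it39 : f t39 = t39) (it44 : f t44 = t44) (it60 : f t60 = t60) (it71 : f t71 = t71) :
    E f (y) 0 0 0 0 0 0 0 0 0 0 0 0 0 0 0 0 0 0 0 0 0 0 0 * E f 0 0 0 (t39) 0 0 (t44) ((t44) * y) 0 0 0 0 0 0 0 0 0 (t60) 0 0 0 0 0 (t71) = E f 0 0 0 (t39) 0 0 (t44) 0 0 0 0 0 0 0 0 0 0 (t60 + t44*y*(f y)) 0 0 0 0 0 (t71) * E f (y) 0 0 0 0 0 0 0 0 0 0 0 0 0 0 0 0 0 0 0 0 0 0 0 := by
  have h2 : (2 : K) = 0 := CharTwo.two_eq_zero
  unfold E
  rw [W_mul, W_mul]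
  apply W_congr
  · (try simp only [map_add, map_mul, map_pow, map_zero, map_one, hff, it39, it44, it60, it71]) <;> linear_combination (0 : K) * h2
  · (try simp only [map_add, map_mul, map_pow, map_zero, map_one, hff, it39, it44, it60, it71]) <;> linear_combination (0 : K) * h2
  · (try simp only [map_add, map_mul, map_pow, map_zero, map_one, hff, it39, it44, it60, it71]) <;> linear_combination (0 : K) * h2
  · (try simp only [map_add, map_mul, map_pow, map_zero, map_one, hff, it39, it44, it60, it71]) <;> linear_combination (0 : K) * h2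
  · (try simp only [map_add, map_mul, map_pow, map_zero, map_one, hff, it39, it44, it60, it71]) <;> linear_combination (0 : K) * h2
  · (try simp only [map_add, map_mul, map_pow, map_zero, map_one, hff, it39, it44, it60, it71]) <;> linear_combination (0 : K) * h2
  · (try simp only [map_add, map_mul, map_pow, map_zero, map_one, hff, it39, it44, it60, it71]) <;> linear_combination (0 : K) * h2
  · (try simp only [map_add, map_mul, map_pow, map_zero, map_one, hff, it39, it44, it60, it71]) <;> linear_combination (0 : K) * h2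
  · (try simp only [map_add, map_mul, map_pow, map_zero, map_one, hff, it39, it44, it60, it71]) <;> linear_combination (0 : K) * h2
  · (try simp only [map_add, map_mul, map_pow, map_zero, map_one, hff, it39, it44, it60, it71]) <;> linear_combination (0 : K) * h2
  · (try simp only [map_add, map_mul, map_pow, map_zero, map_one, hff, it39, it44, it60, it71]) <;> linear_combination (0 : K) * h2
  · (try simp only [map_add, map_mul, map_pow, map_zero, map_one, hff, it39, it44, it60, it71]) <;> linear_combination (0 : K) * h2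
  · (try simp only [map_add, map_mul, map_pow, map_zero, map_one, hff, it39, it44, it60, it71]) <;> linear_combination (0 : K) * h2
  · (try simp only [map_add, map_mul, map_pow, map_zero, map_one, hff, it39, it44, it60, it71]) <;> linear_combination (0 : K) * h2
  · (try simp only [map_add, map_mul, map_pow, map_zero, map_one, hff, it39, it44, it60, it71]) <;> linear_combination (0 : K) * h2
  · (try simp only [map_add, map_mul, map_pow, map_zero, map_one, hff, it39, it44, it60, it71]) <;> linear_combination (0 : K) * h2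
  · (try simp only [map_add, map_mul, map_pow, map_zero, map_one, hff, it39, it44, it60, it71]) <;> linear_combination (0 : K) * h2
  · (try simp only [map_add, map_mul, map_pow, map_zero, map_one, hff, it39, it44, it60, it71]) <;> linear_combination (0 : K) * h2
  · (try simp only [map_add, map_mul, map_pow, map_zero, map_one, hff, it39, it44, it60, it71]) <;> linear_combination (0 : K) * h2
  · (try simp only [map_add, map_mul, map_pow, map_zero, map_one, hff, it39, it44, it60, it71]) <;> linear_combination (0 : K) * h2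
  · (try simp only [map_add, map_mul, map_pow, map_zero, map_one, hff, it39, it44, it60, it71]) <;> linear_combination (0 : K) * h2
  · (try simp only [map_add, map_mul, map_pow, map_zero, map_one, hff, it39, it44, it60, it71]) <;> linear_combination (0 : K) * h2
  · (try simp only [map_add, map_mul, map_pow, map_zero, map_one, hff, it39, it44, it60, it71]) <;> linear_combination (0 : K) * h2
  · (try simp only [map_add, map_mul, map_pow, map_zero, map_one, hff, it39, it44, it60, it71]) <;> linear_combination (t44*(f y)) * h2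
  · (try simp only [map_add, map_mul, map_pow, map_zero, map_one, hff, it39, it44, it60, it71]) <;> linear_combination (0 : K) * h2
  · (try simp only [map_add, map_mul, map_pow, map_zero, map_one, hff, it39, it44, it60, it71]) <;> linear_combination (0 : K) * h2
  · (try simp only [map_add, map_mul, map_pow, map_zero, map_one, hff, it39, it44, it60, it71]) <;> linear_combination (0 : K) * h2
  · (try simp only [map_add, map_mul, map_pow, map_zero, map_one, hff, it39, it44, it60, it71]) <;> linear_combination (0 : K) * h2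
  · (try simp only [map_add, map_mul, map_pow, map_zero, map_one, hff, it39, it44, it60, it71]) <;> linear_combination (0 : K) * h2
  · (try simp only [map_add, map_mul, map_pow, map_zero, map_one, hff, it39, it44, it60, it71]) <;> linear_combination (0 : K) * h2
  · (try simp only [map_add, map_mul, map_pow, map_zero, map_one, hff, it39, it44, it60, it71]) <;> linear_combination (0 : K) * h2
  · (try simp only [map_add, map_mul, map_pow, map_zero, map_one, hff, it39, it44, it60, it71]) <;> linear_combination (0 : K) * h2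
  · (try simp only [map_add, map_mul, map_pow, map_zero, map_one, hff, it39, it44, it60, it71]) <;> linear_combination (0 : K) * h2
  · (try simp only [map_add, map_mul, map_pow, map_zero, map_one, hff, it39, it44, it60, it71]) <;> linear_combination (0 : K) * h2
  · (try simp only [map_add, map_mul, map_pow, map_zero, map_one, hff, it39, it44, it60, it71]) <;> linear_combination (0 : K) * h2
  · (try simp only [map_add, map_mul, map_pow, map_zero, map_one, hff, it39, it44, it60, it71]) <;> linear_combination (0 : K) * h2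

theorem AC_2_1_1_2_1_1 {t39 t44 t71 : K} (d : Dt f) (hp71 : t71 ≠ 0) (hp39 : t39 ≠ 0) (hp44 : t44 ≠ 0) (hm : E f 0 0 0 (t39) 0 0 (t44) 0 0 0 0 0 0 0 0 0 0 0 0 0 0 0 0 (t71) ∈ (sc f).G1) (hs : E f 0 0 0 (t39) 0 0 (t44) 0 0 0 0 0 0 0 0 0 0 0 0 0 0 0 0 (t71) * E f 0 0 0 (t39) 0 0 (t44) 0 0 0 0 0 0 0 0 0 0 0 0 0 0 0 0 (t71) = 1) : Res f (E f 0 0 0 (t39) 0 0 (t44) 0 0 0 0 0 0 0 0 0 0 0 0 0 0 0 0 (t71)) := by
  exact D2 d hp39 hp44 hp71 hm hs

theorem AC_2_1_1_2_1_2 {t39 t44 t60 t71 : K} (d : Dt f) (hp71 : t71 ≠ 0) (hp39 : t39 ≠ 0) (hp44 : t44 ≠ 0) (hp60 : t60 ≠ 0) (hm : E f 0 0 0 (t39) 0 0 (t44) 0 0 0 0 0 0 0 0 0 0 (t60) 0 0 0 0 0 (t71) ∈ (sc f).G1) (hs : E f 0 0 0 (t39) 0 0 (t44) 0 0 0 0 0 0 0 0 0 0 (t60) 0 0 0 0 0 (t71) * E f 0 0 0 (t39) 0 0 (t44) 0 0 0 0 0 0 0 0 0 0 (t60) 0 0 0 0 0 (t71) = 1) : Res f (E f 0 0 0 (t39) 0 0 (t44) 0 0 0 0 0 0 0 0 0 0 (t60) 0 0 0 0 0 (t71)) := by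
  exact D3 d hp71 hp39 hp44 hp60 hm hs

theorem AC_2_1_1_2_1 {t39 t44 t60 t71 : K} (d : Dt f) (hp71 : t71 ≠ 0) (hp39 : t39 ≠ 0) (hp44 : t44 ≠ 0) (hm : E f 0 0 0 (t39) 0 0 (t44) 0 0 0 0 0 0 0 0 0 0 (t60) 0 0 0 0 0 (t71) ∈ (sc f).G1) (hs : E f 0 0 0 (t39) 0 0 (t44) 0 0 0 0 0 0 0 0 0 0 (t60) 0 0 0 0 0 (t71) * E f 0 0 0 (t39) 0 0 (t44) 0 0 0 0 0 0 0 0 0 0 (t60) 0 0 0 0 0 (t71) = 1) : Res f (E f 0 0 0 (t39) 0 0 (t44) 0 0 0 0 0 0 0 0 0 0 (t60) 0 0 0 0 0 (t71)) := by
  by_cases hz : t60 = 0
  · subst hz
    exact AC_2_1_1_2_1_1 d hp71 hp39 hp44 hm hs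
  · exact AC_2_1_1_2_1_2 d hp71 hp39 hp44 hz hm hs

theorem AC_2_1_1_2 {l45 t39 t44 t60 t71 : K} (d : Dt f) (hp71 : t71 ≠ 0) (hp39 : t39 ≠ 0) (hp44 : t44 ≠ 0) (hm : E f 0 0 0 (t39) 0 0 (t44) (l45) 0 0 0 0 0 0 0 0 0 (t60) 0 0 0 0 0 (t71) ∈ (sc f).G1) (hs : E f 0 0 0 (t39) 0 0 (t44) (l45) 0 0 0 0 0 0 0 0 0 (t60) 0 0 0 0 0 (t71) * E f 0 0 0 (t39) 0 0 (t44) (l45) 0 0 0 0 0 0 0 0 0 (t60) 0 0 0 0 0 (t71) = 1) : Res f (E f 0 0 0 (t39) 0 0 (t44) (l45) 0 0 0 0 0 0 0 0 0 (t60) 0 0 0 0 0 (t71)) := by
  obtain ⟨it39, it44, it46, it47, it51, it53, it60, it63, it65, it69, it70, it71⟩ := inv_of_mem d hm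
  obtain ⟨y, rfl⟩ := solve_mul hp44 l45
  have c : Cj f (E f 0 0 0 (t39) 0 0 (t44) ((t44) * y) 0 0 0 0 0 0 0 0 0 (t60) 0 0 0 0 0 (t71)) (E f 0 0 0 (t39) 0 0 (t44) 0 0 0 0 0 0 0 0 0 0 (t60 + t44*y*(f y)) 0 0 0 0 0 (t71)) := cjS f (E_mem_G1 d (map_zero f) (map_zero f) (map_zero f) (map_zero f) (map_zero f) (map_zero f) (map_zero f) (map_zero f) (map_zero f) (map_zero f) (map_zero f) (map_zero f) (y) 0 0 0 0 0 0 0 0 0 0 0) (st_AC_2_1_1_2 d.hff it39 it44 it60 it71)
  exact Res.of_cj f c (AC_2_1_1_2_1 d hp71 hp39 hp44 (c.mem f hm) (c.sq f hs))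

theorem AC_2_1_1_1_2_1 {l45 t39 t44 t71 : K} (d : Dt f) (hp71 : t71 ≠ 0) (hp39 : t39 ≠ 0) (hp44 : t44 ≠ 0) (hm : E f 0 0 0 (t39) 0 0 (t44) (l45) 0 0 0 0 0 0 0 0 0 0 0 0 0 0 0 (t71) ∈ (sc f).G1) (hs : E f 0 0 0 (t39) 0 0 (t44) (l45) 0 0 0 0 0 0 0 0 0 0 0 0 0 0 0 (t71) * E f 0 0 0 (t39) 0 0 (t44) (l45) 0 0 0 0 0 0 0 0 0 0 0 0 0 0 0 (t71) = 1) : Res f (E f 0 0 0 (t39) 0 0 (t44) (l45) 0 0 0 0 0 0 0 0 0 0 0 0 0 0 0 (t71)) := by
  exact AC_2_1_1_2 d hp71 hp39 hp44 hm hs

theorem AC_2_1_1_1_2 {l45 t39 t60 t71 : K} (d : Dt f) (hp71 : t71 ≠ 0) (hp39 : t39 ≠ 0) (hp60 : t60 ≠ 0) (hm : E f 0 0 0 (t39) 0 0 0 (l45) 0 0 0 0 0 0 0 0 0 (t60) 0 0 0 0 0 (t71) ∈ (sc f).G1) (hs : E f 0 0 0 (t39) 0 0 0 (l45) 0 0 0 0 0 0 0 0 0 (t60) 0 0 0 0 0 (t71) * E f 0 0 0 (t39) 0 0 0 (l45) 0 0 0 0 0 0 0 0 0 (t60) 0 0 0 0 0 (t71) = 1) : Res f (E f 0 0 0 (t39) 0 0 0 (l45) 0 0 0 0 0 0 0 0 0 (t60) 0 0 0 0 0 (t71)) := by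
  obtain ⟨it39, it44, it46, it47, it51, it53, it60, it63, it65, it69, it70, it71⟩ := inv_of_mem d hm
  have c : Cj f (E f 0 0 0 (t39) 0 0 0 (l45) 0 0 0 0 0 0 0 0 0 (t60) 0 0 0 0 0 (t71)) (E f 0 0 0 (t39) 0 0 (t60) ((f l45)) 0 0 0 0 0 0 0 0 0 0 0 0 0 0 0 (t71)) := cjN f (nR_mem f [3]) (nE_AC_2_1_1_1_2 d.hff it39 it60 it71)
  exact Res.of_cj f c (AC_2_1_1_1_2_1 d hp71 hp39 hp60 (c.mem f hm) (c.sq f hs))

theorem AC_2_1_1_1_1_2_1 {l45 t39 t60 t71 : K} (d : Dt f) (hp71 : t71 ≠ 0) (hp39 : t39 ≠ 0) (hp60 : t60 ≠ 0) (hm : E f 0 0 0 (t39) 0 0 0 (l45) 0 0 0 0 0 0 0 0 0 (t60) 0 0 0 0 0 (t71) ∈ (sc f).G1) (hs : E f 0 0 0 (t39) 0 0 0 (l45) 0 0 0 0 0 0 0 0 0 (t60) 0 0 0 0 0 (t71) * E f 0 0 0 (t39) 0 0 0 (l45) 0 0 0 0 0 0 0 0 0 (t60) 0 0 0 0 0 (t71) = 1) : Res f (E f 0 0 0 (t39) 0 0 0 (l45) 0 0 0 0 0 0 0 0 0 (t60) 0 0 0 0 0 (t71)) := by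
  exact AC_2_1_1_1_2 d hp71 hp39 hp60 hm hs

theorem AC_2_1_1_1_1_2 {l45 t39 t71 : K} (d : Dt f) (hp71 : t71 ≠ 0) (hp39 : t39 ≠ 0) (hp45 : l45 ≠ 0) (hm : E f 0 0 0 (t39) 0 0 0 (l45) 0 0 0 0 0 0 0 0 0 0 0 0 0 0 0 (t71) ∈ (sc f).G1) (hs : E f 0 0 0 (t39) 0 0 0 (l45) 0 0 0 0 0 0 0 0 0 0 0 0 0 0 0 (t71) * E f 0 0 0 (t39) 0 0 0 (l45) 0 0 0 0 0 0 0 0 0 0 0 0 0 0 0 (t71) = 1) : Res f (E f 0 0 0 (t39) 0 0 0 (l45) 0 0 0 0 0 0 0 0 0 0 0 0 0 0 0 (t71)) := by
  obtain ⟨it39, it44, it46, it47, it51, it53, it60, it63, it65, it69, it70, it71⟩ := inv_of_mem d hm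
  obtain ⟨y, hy⟩ := solve_tr d hp45 (map_one f)
  have c : Cj f (E f 0 0 0 (t39) 0 0 0 (l45) 0 0 0 0 0 0 0 0 0 0 0 0 0 0 0 (t71)) (E f 0 0 0 (t39) 0 0 0 (l45) 0 0 0 0 0 0 0 0 0 (l45*(f y) + y*(f l45)) 0 0 0 0 0 (t71)) := cjS f (E_mem_G1 d (map_zero f) (map_zero f) (map_zero f) (map_zero f) (map_zero f) (map_zero f) (map_zero f) (map_zero f) (map_zero f) (map_zero f) (map_zero f) (map_zero f) (y) 0 0 0 0 0 0 0 0 0 0 0) (st_AC_2_1_1_1_1_2 d.hff it39 it71)
  exact Res.of_cj f c (AC_2_1_1_1_1_2_1 d hp71 hp39 (by intro h0; exact one_ne_zero (α := K) (by rw [hy]; linear_combination h0)) (c.mem f hm) (c.sq f hs))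

theorem AC_2_1_1_1_1 {l45 t39 t71 : K} (d : Dt f) (hp71 : t71 ≠ 0) (hp39 : t39 ≠ 0) (hm : E f 0 0 0 (t39) 0 0 0 (l45) 0 0 0 0 0 0 0 0 0 0 0 0 0 0 0 (t71) ∈ (sc f).G1) (hs : E f 0 0 0 (t39) 0 0 0 (l45) 0 0 0 0 0 0 0 0 0 0 0 0 0 0 0 (t71) * E f 0 0 0 (t39) 0 0 0 (l45) 0 0 0 0 0 0 0 0 0 0 0 0 0 0 0 (t71) = 1) : Res f (E f 0 0 0 (t39) 0 0 0 (l45) 0 0 0 0 0 0 0 0 0 0 0 0 0 0 0 (t71)) := by
  by_cases hz : l45 = 0
  · subst hz
    exact AC_2_1_1_1_1_1 d hp71 hp39 hm hs
  · exact AC_2_1_1_1_1_2 d hp71 hp39 hz hm hs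

theorem AC_2_1_1_1 {l45 t39 t60 t71 : K} (d : Dt f) (hp71 : t71 ≠ 0) (hp39 : t39 ≠ 0) (hm : E f 0 0 0 (t39) 0 0 0 (l45) 0 0 0 0 0 0 0 0 0 (t60) 0 0 0 0 0 (t71) ∈ (sc f).G1) (hs : E f 0 0 0 (t39) 0 0 0 (l45) 0 0 0 0 0 0 0 0 0 (t60) 0 0 0 0 0 (t71) * E f 0 0 0 (t39) 0 0 0 (l45) 0 0 0 0 0 0 0 0 0 (t60) 0 0 0 0 0 (t71) = 1) : Res f (E f 0 0 0 (t39) 0 0 0 (l45) 0 0 0 0 0 0 0 0 0 (t60) 0 0 0 0 0 (t71)) := by
  by_cases hz : t60 = 0
  · subst hz
    exact AC_2_1_1_1_1 d hp71 hp39 hm hs
  · exact AC_2_1_1_1_2 d hp71 hp39 hz hm hs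

theorem AC_2_1_1 {l45 t39 t44 t60 t71 : K} (d : Dt f) (hp71 : t71 ≠ 0) (hp39 : t39 ≠ 0) (hm : E f 0 0 0 (t39) 0 0 (t44) (l45) 0 0 0 0 0 0 0 0 0 (t60) 0 0 0 0 0 (t71) ∈ (sc f).G1) (hs : E f 0 0 0 (t39) 0 0 (t44) (l45) 0 0 0 0 0 0 0 0 0 (t60) 0 0 0 0 0 (t71) * E f 0 0 0 (t39) 0 0 (t44) (l45) 0 0 0 0 0 0 0 0 0 (t60) 0 0 0 0 0 (t71) = 1) : Res f (E f 0 0 0 (t39) 0 0 (t44) (l45) 0 0 0 0 0 0 0 0 0 (t60) 0 0 0 0 0 (t71)) := by
  by_cases hz : t44 = 0
  · subst hz
    exact AC_2_1_1_1 d hp71 hp39 hm hs
  · exact AC_2_1_1_2 d hp71 hp39 hz hm hs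

theorem AC_2_1 {l41 l45 t39 t44 t60 t71 : K} (d : Dt f) (hp71 : t71 ≠ 0) (hp39 : t39 ≠ 0) (hm : E f 0 0 0 (t39) 0 (l41) (t44) (l45) 0 0 0 0 0 0 0 0 0 (t60) 0 0 0 0 0 (t71) ∈ (sc f).G1) (hs : E f 0 0 0 (t39) 0 (l41) (t44) (l45) 0 0 0 0 0 0 0 0 0 (t60) 0 0 0 0 0 (t71) * E f 0 0 0 (t39) 0 (l41) (t44) (l45) 0 0 0 0 0 0 0 0 0 (t60) 0 0 0 0 0 (t71) = 1) : Res f (E f 0 0 0 (t39) 0 (l41) (t44) (l45) 0 0 0 0 0 0 0 0 0 (t60) 0 0 0 0 0 (t71)) := by
  obtain ⟨it39, it44, it46, it47, it51, it53, it60, it63, it65, it69, it70, it71⟩ := inv_of_mem d hm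
  obtain ⟨y, rfl⟩ := solve_mul hp39 l41
  have c : Cj f (E f 0 0 0 (t39) 0 ((t39) * y) (t44) (l45) 0 0 0 0 0 0 0 0 0 (t60) 0 0 0 0 0 (t71)) (E f 0 0 0 (t39) 0 0 (t44) (l45) 0 0 0 0 0 0 0 0 0 (t60 + t39*y*(f y)) 0 0 0 0 0 (t71)) := cjS f (E_mem_G1 d (map_zero f) (map_zero f) (map_zero f) (map_zero f) (map_zero f) (map_zero f) (map_zero f) (map_zero f) (map_zero f) (map_zero f) (map_zero f) (map_zero f) 0 0 (y) 0 0 0 0 0 0 0 0 0) (st_AC_2_1 d.hff it39 it44 it60 it71)
  exact Res.of_cj f c (AC_2_1_1 d hp71 hp39 (c.mem f hm) (c.sq f hs))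

theorem AC_2 {l40 l41 l45 t39 t44 t60 t71 : K} (d : Dt f) (hp71 : t71 ≠ 0) (hp39 : t39 ≠ 0) (hm : E f 0 0 0 (t39) (l40) (l41) (t44) (l45) 0 0 0 0 0 0 0 0 0 (t60) 0 0 0 0 0 (t71) ∈ (sc f).G1) (hs : E f 0 0 0 (t39) (l40) (l41) (t44) (l45) 0 0 0 0 0 0 0 0 0 (t60) 0 0 0 0 0 (t71) * E f 0 0 0 (t39) (l40) (l41) (t44) (l45) 0 0 0 0 0 0 0 0 0 (t60) 0 0 0 0 0 (t71) = 1) : Res f (E f 0 0 0 (t39) (l40) (l41) (t44) (l45) 0 0 0 0 0 0 0 0 0 (t60) 0 0 0 0 0 (t71)) := by
  obtain ⟨it39, it44, it46, it47, it51, it53, it60, it63, it65, it69, it70, it71⟩ := inv_of_mem d hm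
  obtain ⟨y, rfl⟩ := solve_mul hp39 l40
  have c : Cj f (E f 0 0 0 (t39) ((t39) * y) (l41) (t44) (l45) 0 0 0 0 0 0 0 0 0 (t60) 0 0 0 0 0 (t71)) (E f 0 0 0 (t39) 0 (l41) (t44 + t39*y*(f y)) (l45 + l41*(f y)) 0 0 0 0 0 0 0 0 0 (t60) 0 0 0 0 0 (t71)) := cjS f (E_mem_G1 d (map_zero f) (map_zero f) (map_zero f) (map_zero f) (map_zero f) (map_zero f) (map_zero f) (map_zero f) (map_zero f) (map_zero f) (map_zero f) (map_zero f) 0 (y) 0 0 0 0 0 0 0 0 0 0) (st_AC_2 d.hff it39 it44 it60 it71)
  exact Res.of_cj f c (AC_2_1 d hp71 hp39 (c.mem f hm) (c.sq f hs))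

theorem AC_1_2_1 {l40 l41 l45 t39 t60 t71 : K} (d : Dt f) (hp71 : t71 ≠ 0) (hp39 : t39 ≠ 0) (hm : E f 0 0 0 (t39) (l40) (l41) 0 (l45) 0 0 0 0 0 0 0 0 0 (t60) 0 0 0 0 0 (t71) ∈ (sc f).G1) (hs : E f 0 0 0 (t39) (l40) (l41) 0 (l45) 0 0 0 0 0 0 0 0 0 (t60) 0 0 0 0 0 (t71) * E f 0 0 0 (t39) (l40) (l41) 0 (l45) 0 0 0 0 0 0 0 0 0 (t60) 0 0 0 0 0 (t71) = 1) : Res f (E f 0 0 0 (t39) (l40) (l41) 0 (l45) 0 0 0 0 0 0 0 0 0 (t60) 0 0 0 0 0 (t71)) := by
  exact AC_2 d hp71 hp39 hm hs

theorem AC_1_2 {l40 l41 l45 t44 t60 t71 : K} (d : Dt f) (hp71 : t71 ≠ 0) (hp44 : t44 ≠ 0) (hm : E f 0 0 0 0 (l40) (l41) (t44) (l45) 0 0 0 0 0 0 0 0 0 (t60) 0 0 0 0 0 (t71) ∈ (sc f).G1) (hs : E f 0 0 0 0 (l40) (l41) (t44) (l45) 0 0 0 0 0 0 0 0 0 (t60) 0 0 0 0 0 (t71) * E f 0 0 0 0 (l40) (l41) (t44) (l45) 0 0 0 0 0 0 0 0 0 (t60) 0 0 0 0 0 (t71) = 1) : Res f (E f 0 0 0 0 (l40) (l41) (t44) (l45) 0 0 0 0 0 0 0 0 0 (t60) 0 0 0 0 0 (t71)) := by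
  obtain ⟨it39, it44, it46, it47, it51, it53, it60, it63, it65, it69, it70, it71⟩ := inv_of_mem d hm
  have c : Cj f (E f 0 0 0 0 (l40) (l41) (t44) (l45) 0 0 0 0 0 0 0 0 0 (t60) 0 0 0 0 0 (t71)) (E f 0 0 0 (t44) ((f l40)) (l45) 0 (l41) 0 0 0 0 0 0 0 0 0 (t60) 0 0 0 0 0 (t71)) := cjN f (nR_mem f [2]) (nE_AC_1_2 d.hff it44 it60 it71)
  exact Res.of_cj f c (AC_1_2_1 d hp71 hp44 (c.mem f hm) (c.sq f hs))

theorem AC_1_1_2_1 {l40 l41 l45 t44 t71 : K} (d : Dt f) (hp71 : t71 ≠ 0) (hp44 : t44 ≠ 0) (hm : E f 0 0 0 0 (l40) (l41) (t44) (l45) 0 0 0 0 0 0 0 0 0 0 0 0 0 0 0 (t71) ∈ (sc f).G1) (hs : E f 0 0 0 0 (l40) (l41) (t44) (l45) 0 0 0 0 0 0 0 0 0 0 0 0 0 0 0 (t71) * E f 0 0 0 0 (l40) (l41) (t44) (l45) 0 0 0 0 0 0 0 0 0 0 0 0 0 0 0 (t71) = 1) : Res f (E f 0 0 0 0 (l40) (l41) (t44) (l45) 0 0 0 0 0 0 0 0 0 0 0 0 0 0 0 (t71)) := by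
  exact AC_1_2 d hp71 hp44 hm hs

theorem AC_1_1_2 {l40 l41 l45 t60 t71 : K} (d : Dt f) (hp71 : t71 ≠ 0) (hp60 : t60 ≠ 0) (hm : E f 0 0 0 0 (l40) (l41) 0 (l45) 0 0 0 0 0 0 0 0 0 (t60) 0 0 0 0 0 (t71) ∈ (sc f).G1) (hs : E f 0 0 0 0 (l40) (l41) 0 (l45) 0 0 0 0 0 0 0 0 0 (t60) 0 0 0 0 0 (t71) * E f 0 0 0 0 (l40) (l41) 0 (l45) 0 0 0 0 0 0 0 0 0 (t60) 0 0 0 0 0 (t71) = 1) : Res f (E f 0 0 0 0 (l40) (l41) 0 (l45) 0 0 0 0 0 0 0 0 0 (t60) 0 0 0 0 0 (t71)) := by
  obtain ⟨it39, it44, it46, it47, it51, it53, it60, it63, it65, it69, it70, it71⟩ := inv_of_mem d hm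
  have c : Cj f (E f 0 0 0 0 (l40) (l41) 0 (l45) 0 0 0 0 0 0 0 0 0 (t60) 0 0 0 0 0 (t71)) (E f 0 0 0 0 (l41) (l40) (t60) ((f l45)) 0 0 0 0 0 0 0 0 0 0 0 0 0 0 0 (t71)) := cjN f (nR_mem f [3]) (nE_AC_1_1_2 d.hff it60 it71)
  exact Res.of_cj f c (AC_1_1_2_1 d hp71 hp60 (c.mem f hm) (c.sq f hs))

theorem AC_1_1_1_1_1_2_1 {l41 t60 t71 : K} (d : Dt f) (hp71 : t71 ≠ 0) (hp60 : t60 ≠ 0) (hm : E f 0 0 0 0 0 (l41) 0 0 0 0 0 0 0 0 0 0 0 (t60) 0 0 0 0 0 (t71) ∈ (sc f).G1) (hs : E f 0 0 0 0 0 (l41) 0 0 0 0 0 0 0 0 0 0 0 (t60) 0 0 0 0 0 (t71) * E f 0 0 0 0 0 (l41) 0 0 0 0 0 0 0 0 0 0 0 (t60) 0 0 0 0 0 (t71) = 1) : Res f (E f 0 0 0 0 0 (l41) 0 0 0 0 0 0 0 0 0 0 0 (t60) 0 0 0 0 0 (t71)) := by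
  exact AC_1_1_2 d hp71 hp60 hm hs

theorem AC_1_1_1_1_1_2 {l41 t71 : K} (d : Dt f) (hp71 : t71 ≠ 0) (hp41 : l41 ≠ 0) (hm : E f 0 0 0 0 0 (l41) 0 0 0 0 0 0 0 0 0 0 0 0 0 0 0 0 0 (t71) ∈ (sc f).G1) (hs : E f 0 0 0 0 0 (l41) 0 0 0 0 0 0 0 0 0 0 0 0 0 0 0 0 0 (t71) * E f 0 0 0 0 0 (l41) 0 0 0 0 0 0 0 0 0 0 0 0 0 0 0 0 0 (t71) = 1) : Res f (E f 0 0 0 0 0 (l41) 0 0 0 0 0 0 0 0 0 0 0 0 0 0 0 0 0 (t71)) := by
  obtain ⟨it39, it44, it46, it47, it51, it53, it60, it63, it65, it69, it70, it71⟩ := inv_of_mem d hm
  obtain ⟨y, hy⟩ := solve_tr d hp41 (map_one f)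
  have c : Cj f (E f 0 0 0 0 0 (l41) 0 0 0 0 0 0 0 0 0 0 0 0 0 0 0 0 0 (t71)) (E f 0 0 0 0 0 (l41) 0 0 0 0 0 0 0 0 0 0 0 (l41*(f y) + y*(f l41)) 0 0 0 0 0 (t71)) := cjS f (E_mem_G1 d (map_zero f) (map_zero f) (map_zero f) (map_zero f) (map_zero f) (map_zero f) (map_zero f) (map_zero f) (map_zero f) (map_zero f) (map_zero f) (map_zero f) 0 0 (y) 0 0 0 0 0 0 0 0 0) (st_AC_1_1_1_1_1_2 d.hff it71)
  exact Res.of_cj f c (AC_1_1_1_1_1_2_1 d hp71 (by intro h0; exact one_ne_zero (α := K) (by rw [hy]; linear_combination h0)) (c.mem f hm) (c.sq f hs))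

theorem AC_1_1_1_1_1 {l41 t71 : K} (d : Dt f) (hp71 : t71 ≠ 0) (hm : E f 0 0 0 0 0 (l41) 0 0 0 0 0 0 0 0 0 0 0 0 0 0 0 0 0 (t71) ∈ (sc f).G1) (hs : E f 0 0 0 0 0 (l41) 0 0 0 0 0 0 0 0 0 0 0 0 0 0 0 0 0 (t71) * E f 0 0 0 0 0 (l41) 0 0 0 0 0 0 0 0 0 0 0 0 0 0 0 0 0 (t71) = 1) : Res f (E f 0 0 0 0 0 (l41) 0 0 0 0 0 0 0 0 0 0 0 0 0 0 0 0 0 (t71)) := by
  by_cases hz : l41 = 0
  · subst hz
    exact AC_1_1_1_1_1_1 d hp71 hm hs
  · exact AC_1_1_1_1_1_2 d hp71 hz hm hs

theorem st_AC_1_1_1_1_2 {l41 l45 t71 y : K} (hff : ∀ t, f (f t) = t) (it71 : f t71 = t71) :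
    E f (y) 0 0 0 0 0 0 0 0 0 0 0 0 0 0 0 0 0 0 0 0 0 0 0 * E f 0 0 0 0 0 (l41) 0 (l45) 0 0 0 0 0 0 0 0 0 0 0 0 0 0 0 (t71) = E f 0 0 0 0 0 (l41) 0 (l45) 0 0 0 0 0 0 0 0 0 (l45*(f y) + y*(f l45)) 0 0 0 0 0 (t71) * E f (y) 0 0 0 0 0 0 0 0 0 0 0 0 0 0 0 0 0 0 0 0 0 0 0 := by
  have h2 : (2 : K) = 0 := CharTwo.two_eq_zero
  unfold E
  rw [W_mul, W_mul]
  apply W_congr
  · (try simp only [map_add, map_mul, map_pow, map_zero, map_one, hff, it71]) <;> linear_combination (0 : K) * h2
  · (try simp only [map_add, map_mul, map_pow, map_zero, map_one, hff, it71]) <;> linear_combination (0 : K) * h2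
  · (try simp only [map_add, map_mul, map_pow, map_zero, map_one, hff, it71]) <;> linear_combination (0 : K) * h2
  · (try simp only [map_add, map_mul, map_pow, map_zero, map_one, hff, it71]) <;> linear_combination (0 : K) * h2
  · (try simp only [map_add, map_mul, map_pow, map_zero, map_one, hff, it71]) <;> linear_combination (0 : K) * h2
  · (try simp only [map_add, map_mul, map_pow, map_zero, map_one, hff, it71]) <;> linear_combination (0 : K) * h2
  · (try simp only [map_add, map_mul, map_pow, map_zero, map_one, hff, it71]) <;> linear_combination (0 : K) * h2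
  · (try simp only [map_add, map_mul, map_pow, map_zero, map_one, hff, it71]) <;> linear_combination (0 : K) * h2
  · (try simp only [map_add, map_mul, map_pow, map_zero, map_one, hff, it71]) <;> linear_combination (0 : K) * h2
  · (try simp only [map_add, map_mul, map_pow, map_zero, map_one, hff, it71]) <;> linear_combination (0 : K) * h2
  · (try simp only [map_add, map_mul, map_pow, map_zero, map_one, hff, it71]) <;> linear_combination (0 : K) * h2
  · (try simp only [map_add, map_mul, map_pow, map_zero, map_one, hff, it71]) <;> linear_combination (0 : K) * h2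
  · (try simp only [map_add, map_mul, map_pow, map_zero, map_one, hff, it71]) <;> linear_combination (0 : K) * h2
  · (try simp only [map_add, map_mul, map_pow, map_zero, map_one, hff, it71]) <;> linear_combination (0 : K) * h2
  · (try simp only [map_add, map_mul, map_pow, map_zero, map_one, hff, it71]) <;> linear_combination (0 : K) * h2
  · (try simp only [map_add, map_mul, map_pow, map_zero, map_one, hff, it71]) <;> linear_combination (0 : K) * h2
  · (try simp only [map_add, map_mul, map_pow, map_zero, map_one, hff, it71]) <;> linear_combination (0 : K) * h2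
  · (try simp only [map_add, map_mul, map_pow, map_zero, map_one, hff, it71]) <;> linear_combination (0 : K) * h2
  · (try simp only [map_add, map_mul, map_pow, map_zero, map_one, hff, it71]) <;> linear_combination (0 : K) * h2
  · (try simp only [map_add, map_mul, map_pow, map_zero, map_one, hff, it71]) <;> linear_combination (0 : K) * h2
  · (try simp only [map_add, map_mul, map_pow, map_zero, map_one, hff, it71]) <;> linear_combination (0 : K) * h2
  · (try simp only [map_add, map_mul, map_pow, map_zero, map_one, hff, it71]) <;> linear_combination (0 : K) * h2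
  · (try simp only [map_add, map_mul, map_pow, map_zero, map_one, hff, it71]) <;> linear_combination (0 : K) * h2
  · (try simp only [map_add, map_mul, map_pow, map_zero, map_one, hff, it71]) <;> linear_combination (0 : K) * h2
  · (try simp only [map_add, map_mul, map_pow, map_zero, map_one, hff, it71]) <;> linear_combination (-y*(f l45)) * h2
  · (try simp only [map_add, map_mul, map_pow, map_zero, map_one, hff, it71]) <;> linear_combination (0 : K) * h2
  · (try simp only [map_add, map_mul, map_pow, map_zero, map_one, hff, it71]) <;> linear_combination (0 : K) * h2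
  · (try simp only [map_add, map_mul, map_pow, map_zero, map_one, hff, it71]) <;> linear_combination (0 : K) * h2
  · (try simp only [map_add, map_mul, map_pow, map_zero, map_one, hff, it71]) <;> linear_combination (0 : K) * h2
  · (try simp only [map_add, map_mul, map_pow, map_zero, map_one, hff, it71]) <;> linear_combination (0 : K) * h2
  · (try simp only [map_add, map_mul, map_pow, map_zero, map_one, hff, it71]) <;> linear_combination (0 : K) * h2
  · (try simp only [map_add, map_mul, map_pow, map_zero, map_one, hff, it71]) <;> linear_combination (0 : K) * h2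
  · (try simp only [map_add, map_mul, map_pow, map_zero, map_one, hff, it71]) <;> linear_combination (0 : K) * h2
  · (try simp only [map_add, map_mul, map_pow, map_zero, map_one, hff, it71]) <;> linear_combination (0 : K) * h2
  · (try simp only [map_add, map_mul, map_pow, map_zero, map_one, hff, it71]) <;> linear_combination (0 : K) * h2
  · (try simp only [map_add, map_mul, map_pow, map_zero, map_one, hff, it71]) <;> linear_combination (0 : K) * h2

theorem AC_1_1_1_1_2_1 {l41 l45 t60 t71 : K} (d : Dt f) (hp71 : t71 ≠ 0) (hp60 : t60 ≠ 0) (hm : E f 0 0 0 0 0 (l41) 0 (l45) 0 0 0 0 0 0 0 0 0 (t60) 0 0 0 0 0 (t71) ∈ (sc f).G1) (hs : E f 0 0 0 0 0 (l41) 0 (l45) 0 0 0 0 0 0 0 0 0 (t60) 0 0 0 0 0 (t71) * E f 0 0 0 0 0 (l41) 0 (l45) 0 0 0 0 0 0 0 0 0 (t60) 0 0 0 0 0 (t71) = 1) : Res f (E f 0 0 0 0 0 (l41) 0 (l45) 0 0 0 0 0 0 0 0 0 (t60) 0 0 0 0 0 (t71)) := by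
  exact AC_1_1_2 d hp71 hp60 hm hs

theorem AC_1_1_1_1_2 {l41 l45 t71 : K} (d : Dt f) (hp71 : t71 ≠ 0) (hp45 : l45 ≠ 0) (hm : E f 0 0 0 0 0 (l41) 0 (l45) 0 0 0 0 0 0 0 0 0 0 0 0 0 0 0 (t71) ∈ (sc f).G1) (hs : E f 0 0 0 0 0 (l41) 0 (l45) 0 0 0 0 0 0 0 0 0 0 0 0 0 0 0 (t71) * E f 0 0 0 0 0 (l41) 0 (l45) 0 0 0 0 0 0 0 0 0 0 0 0 0 0 0 (t71) = 1) : Res f (E f 0 0 0 0 0 (l41) 0 (l45) 0 0 0 0 0 0 0 0 0 0 0 0 0 0 0 (t71)) := by
  obtain ⟨it39, it44, it46, it47, it51, it53, it60, it63, it65, it69, it70, it71⟩ := inv_of_mem d hm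
  obtain ⟨y, hy⟩ := solve_tr d hp45 (map_one f)
  have c : Cj f (E f 0 0 0 0 0 (l41) 0 (l45) 0 0 0 0 0 0 0 0 0 0 0 0 0 0 0 (t71)) (E f 0 0 0 0 0 (l41) 0 (l45) 0 0 0 0 0 0 0 0 0 (l45*(f y) + y*(f l45)) 0 0 0 0 0 (t71)) := cjS f (E_mem_G1 d (map_zero f) (map_zero f) (map_zero f) (map_zero f) (map_zero f) (map_zero f) (map_zero f) (map_zero f) (map_zero f) (map_zero f) (map_zero f) (map_zero f) (y) 0 0 0 0 0 0 0 0 0 0 0) (st_AC_1_1_1_1_2 d.hff it71)
  exact Res.of_cj f c (AC_1_1_1_1_2_1 d hp71 (by intro h0; exact one_ne_zero (α := K) (by rw [hy]; linear_combination h0)) (c.mem f hm) (c.sq f hs))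

theorem AC_1_1_1_1 {l41 l45 t71 : K} (d : Dt f) (hp71 : t71 ≠ 0) (hm : E f 0 0 0 0 0 (l41) 0 (l45) 0 0 0 0 0 0 0 0 0 0 0 0 0 0 0 (t71) ∈ (sc f).G1) (hs : E f 0 0 0 0 0 (l41) 0 (l45) 0 0 0 0 0 0 0 0 0 0 0 0 0 0 0 (t71) * E f 0 0 0 0 0 (l41) 0 (l45) 0 0 0 0 0 0 0 0 0 0 0 0 0 0 0 (t71) = 1) : Res f (E f 0 0 0 0 0 (l41) 0 (l45) 0 0 0 0 0 0 0 0 0 0 0 0 0 0 0 (t71)) := by
  by_cases hz : l45 = 0
  · subst hz
    exact AC_1_1_1_1_1 d hp71 hm hs
  · exact AC_1_1_1_1_2 d hp71 hz hm hs

theorem st_AC_1_1_1_2 {l40 l41 l45 t71 y : K} (hff : ∀ t, f (f t) = t) (it71 : f t71 = t71) :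
    E f 0 (y) 0 0 0 0 0 0 0 0 0 0 0 0 0 0 0 0 0 0 0 0 0 0 * E f 0 0 0 0 (l40) (l41) 0 (l45) 0 0 0 0 0 0 0 0 0 0 0 0 0 0 0 (t71) = E f 0 0 0 0 (l40) (l41) (l40*(f y) + y*(f l40)) (l45 + l41*(f y)) 0 0 0 0 0 0 0 0 0 0 0 0 0 0 0 (t71) * E f 0 (y) 0 0 0 0 0 0 0 0 0 0 0 0 0 0 0 0 0 0 0 0 0 0 := by
  have h2 : (2 : K) = 0 := CharTwo.two_eq_zero
  unfold E
  rw [W_mul, W_mul]
  apply W_congr
  · (try simp only [map_add, map_mul, map_pow, map_zero, map_one, hff, it71]) <;> linear_combination (0 : K) * h2
  · (try simp only [map_add, map_mul, map_pow, map_zero, map_one, hff, it71]) <;> linear_combination (0 : K) * h2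
  · (try simp only [map_add, map_mul, map_pow, map_zero, map_one, hff, it71]) <;> linear_combination (0 : K) * h2
  · (try simp only [map_add, map_mul, map_pow, map_zero, map_one, hff, it71]) <;> linear_combination (0 : K) * h2
  · (try simp only [map_add, map_mul, map_pow, map_zero, map_one, hff, it71]) <;> linear_combination (0 : K) * h2
  · (try simp only [map_add, map_mul, map_pow, map_zero, map_one, hff, it71]) <;> linear_combination (0 : K) * h2
  · (try simp only [map_add, map_mul, map_pow, map_zero, map_one, hff, it71]) <;> linear_combination (0 : K) * h2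
  · (try simp only [map_add, map_mul, map_pow, map_zero, map_one, hff, it71]) <;> linear_combination (0 : K) * h2
  · (try simp only [map_add, map_mul, map_pow, map_zero, map_one, hff, it71]) <;> linear_combination (-y*(f l40)) * h2
  · (try simp only [map_add, map_mul, map_pow, map_zero, map_one, hff, it71]) <;> linear_combination (0 : K) * h2
  · (try simp only [map_add, map_mul, map_pow, map_zero, map_one, hff, it71]) <;> linear_combination (0 : K) * h2
  · (try simp only [map_add, map_mul, map_pow, map_zero, map_one, hff, it71]) <;> linear_combination (0 : K) * h2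
  · (try simp only [map_add, map_mul, map_pow, map_zero, map_one, hff, it71]) <;> linear_combination (0 : K) * h2
  · (try simp only [map_add, map_mul, map_pow, map_zero, map_one, hff, it71]) <;> linear_combination (0 : K) * h2
  · (try simp only [map_add, map_mul, map_pow, map_zero, map_one, hff, it71]) <;> linear_combination (0 : K) * h2
  · (try simp only [map_add, map_mul, map_pow, map_zero, map_one, hff, it71]) <;> linear_combination (0 : K) * h2
  · (try simp only [map_add, map_mul, map_pow, map_zero, map_one, hff, it71]) <;> linear_combination (0 : K) * h2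
  · (try simp only [map_add, map_mul, map_pow, map_zero, map_one, hff, it71]) <;> linear_combination (0 : K) * h2
  · (try simp only [map_add, map_mul, map_pow, map_zero, map_one, hff, it71]) <;> linear_combination (0 : K) * h2
  · (try simp only [map_add, map_mul, map_pow, map_zero, map_one, hff, it71]) <;> linear_combination (0 : K) * h2
  · (try simp only [map_add, map_mul, map_pow, map_zero, map_one, hff, it71]) <;> linear_combination (0 : K) * h2
  · (try simp only [map_add, map_mul, map_pow, map_zero, map_one, hff, it71]) <;> linear_combination (0 : K) * h2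
  · (try simp only [map_add, map_mul, map_pow, map_zero, map_one, hff, it71]) <;> linear_combination (0 : K) * h2
  · (try simp only [map_add, map_mul, map_pow, map_zero, map_one, hff, it71]) <;> linear_combination (-y*(f l41)) * h2
  · (try simp only [map_add, map_mul, map_pow, map_zero, map_one, hff, it71]) <;> linear_combination (0 : K) * h2
  · (try simp only [map_add, map_mul, map_pow, map_zero, map_one, hff, it71]) <;> linear_combination (0 : K) * h2
  · (try simp only [map_add, map_mul, map_pow, map_zero, map_one, hff, it71]) <;> linear_combination (0 : K) * h2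
  · (try simp only [map_add, map_mul, map_pow, map_zero, map_one, hff, it71]) <;> linear_combination (0 : K) * h2
  · (try simp only [map_add, map_mul, map_pow, map_zero, map_one, hff, it71]) <;> linear_combination (0 : K) * h2
  · (try simp only [map_add, map_mul, map_pow, map_zero, map_one, hff, it71]) <;> linear_combination (0 : K) * h2
  · (try simp only [map_add, map_mul, map_pow, map_zero, map_one, hff, it71]) <;> linear_combination (0 : K) * h2
  · (try simp only [map_add, map_mul, map_pow, map_zero, map_one, hff, it71]) <;> linear_combination (0 : K) * h2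
  · (try simp only [map_add, map_mul, map_pow, map_zero, map_one, hff, it71]) <;> linear_combination (0 : K) * h2
  · (try simp only [map_add, map_mul, map_pow, map_zero, map_one, hff, it71]) <;> linear_combination (0 : K) * h2
  · (try simp only [map_add, map_mul, map_pow, map_zero, map_one, hff, it71]) <;> linear_combination (0 : K) * h2
  · (try simp only [map_add, map_mul, map_pow, map_zero, map_one, hff, it71]) <;> linear_combination (0 : K) * h2

theorem AC_1_1_1_2_1 {l40 l41 l45 t44 t71 : K} (d : Dt f) (hp71 : t71 ≠ 0) (hp44 : t44 ≠ 0) (hm : E f 0 0 0 0 (l40) (l41) (t44) (l45) 0 0 0 0 0 0 0 0 0 0 0 0 0 0 0 (t71) ∈ (sc f).G1) (hs : E f 0 0 0 0 (l40) (l41) (t44) (l45) 0 0 0 0 0 0 0 0 0 0 0 0 0 0 0 (t71) * E f 0 0 0 0 (l40) (l41) (t44) (l45) 0 0 0 0 0 0 0 0 0 0 0 0 0 0 0 (t71) = 1) : Res f (E f 0 0 0 0 (l40) (l41) (t44) (l45) 0 0 0 0 0 0 0 0 0 0 0 0 0 0 0 (t71)) := by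
  exact AC_1_2 d hp71 hp44 hm hs

theorem AC_1_1_1_2 {l40 l41 l45 t71 : K} (d : Dt f) (hp71 : t71 ≠ 0) (hp40 : l40 ≠ 0) (hm : E f 0 0 0 0 (l40) (l41) 0 (l45) 0 0 0 0 0 0 0 0 0 0 0 0 0 0 0 (t71) ∈ (sc f).G1) (hs : E f 0 0 0 0 (l40) (l41) 0 (l45) 0 0 0 0 0 0 0 0 0 0 0 0 0 0 0 (t71) * E f 0 0 0 0 (l40) (l41) 0 (l45) 0 0 0 0 0 0 0 0 0 0 0 0 0 0 0 (t71) = 1) : Res f (E f 0 0 0 0 (l40) (l41) 0 (l45) 0 0 0 0 0 0 0 0 0 0 0 0 0 0 0 (t71)) := by
  obtain ⟨it39, it44, it46, it47, it51, it53, it60, it63, it65, it69, it70, it71⟩ := inv_of_mem d hm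
  obtain ⟨y, hy⟩ := solve_tr d hp40 (map_one f)
  have c : Cj f (E f 0 0 0 0 (l40) (l41) 0 (l45) 0 0 0 0 0 0 0 0 0 0 0 0 0 0 0 (t71)) (E f 0 0 0 0 (l40) (l41) (l40*(f y) + y*(f l40)) (l45 + l41*(f y)) 0 0 0 0 0 0 0 0 0 0 0 0 0 0 0 (t71)) := cjS f (E_mem_G1 d (map_zero f) (map_zero f) (map_zero f) (map_zero f) (map_zero f) (map_zero f) (map_zero f) (map_zero f) (map_zero f) (map_zero f) (map_zero f) (map_zero f) 0 (y) 0 0 0 0 0 0 0 0 0 0) (st_AC_1_1_1_2 d.hff it71)
  exact Res.of_cj f c (AC_1_1_1_2_1 d hp71 (by intro h0; exact one_ne_zero (α := K) (by rw [hy]; linear_combination h0)) (c.mem f hm) (c.sq f hs))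

theorem AC_1_1_1 {l40 l41 l45 t71 : K} (d : Dt f) (hp71 : t71 ≠ 0) (hm : E f 0 0 0 0 (l40) (l41) 0 (l45) 0 0 0 0 0 0 0 0 0 0 0 0 0 0 0 (t71) ∈ (sc f).G1) (hs : E f 0 0 0 0 (l40) (l41) 0 (l45) 0 0 0 0 0 0 0 0 0 0 0 0 0 0 0 (t71) * E f 0 0 0 0 (l40) (l41) 0 (l45) 0 0 0 0 0 0 0 0 0 0 0 0 0 0 0 (t71) = 1) : Res f (E f 0 0 0 0 (l40) (l41) 0 (l45) 0 0 0 0 0 0 0 0 0 0 0 0 0 0 0 (t71)) := by
  by_cases hz : l40 = 0
  · subst hz
    exact AC_1_1_1_1 d hp71 hm hs
  · exact AC_1_1_1_2 d hp71 hz hm hs

theorem AC_1_1 {l40 l41 l45 t60 t71 : K} (d : Dt f) (hp71 : t71 ≠ 0) (hm : E f 0 0 0 0 (l40) (l41) 0 (l45) 0 0 0 0 0 0 0 0 0 (t60) 0 0 0 0 0 (t71) ∈ (sc f).G1) (hs : E f 0 0 0 0 (l40) (l41) 0 (l45) 0 0 0 0 0 0 0 0 0 (t60) 0 0 0 0 0 (t71) * E f 0 0 0 0 (l40) (l41) 0 (l45) 0 0 0 0 0 0 0 0 0 (t60) 0 0 0 0 0 (t71) = 1) : Res f (E f 0 0 0 0 (l40) (l41) 0 (l45) 0 0 0 0 0 0 0 0 0 (t60) 0 0 0 0 0 (t71)) := by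
  by_cases hz : t60 = 0
  · subst hz
    exact AC_1_1_1 d hp71 hm hs
  · exact AC_1_1_2 d hp71 hz hm hs

theorem AC_1 {l40 l41 l45 t44 t60 t71 : K} (d : Dt f) (hp71 : t71 ≠ 0) (hm : E f 0 0 0 0 (l40) (l41) (t44) (l45) 0 0 0 0 0 0 0 0 0 (t60) 0 0 0 0 0 (t71) ∈ (sc f).G1) (hs : E f 0 0 0 0 (l40) (l41) (t44) (l45) 0 0 0 0 0 0 0 0 0 (t60) 0 0 0 0 0 (t71) * E f 0 0 0 0 (l40) (l41) (t44) (l45) 0 0 0 0 0 0 0 0 0 (t60) 0 0 0 0 0 (t71) = 1) : Res f (E f 0 0 0 0 (l40) (l41) (t44) (l45) 0 0 0 0 0 0 0 0 0 (t60) 0 0 0 0 0 (t71)) := by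
  by_cases hz : t44 = 0
  · subst hz
    exact AC_1_1 d hp71 hm hs
  · exact AC_1_2 d hp71 hz hm hs

theorem AC {l40 l41 l45 t39 t44 t60 t71 : K} (d : Dt f) (hp71 : t71 ≠ 0) (hm : E f 0 0 0 (t39) (l40) (l41) (t44) (l45) 0 0 0 0 0 0 0 0 0 (t60) 0 0 0 0 0 (t71) ∈ (sc f).G1) (hs : E f 0 0 0 (t39) (l40) (l41) (t44) (l45) 0 0 0 0 0 0 0 0 0 (t60) 0 0 0 0 0 (t71) * E f 0 0 0 (t39) (l40) (l41) (t44) (l45) 0 0 0 0 0 0 0 0 0 (t60) 0 0 0 0 0 (t71) = 1) : Res f (E f 0 0 0 (t39) (l40) (l41) (t44) (l45) 0 0 0 0 0 0 0 0 0 (t60) 0 0 0 0 0 (t71)) := by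
  by_cases hz : t39 = 0
  · subst hz
    exact AC_1 d hp71 hm hs
  · exact AC_2 d hp71 hz hm hs

theorem F1_1_1_1 {l40 l41 l45 t39 t44 t60 t71 : K} (d : Dt f) (hp71 : t71 ≠ 0) (hm : E f 0 0 0 (t39) (l40) (l41) (t44) (l45) 0 0 0 0 0 0 0 0 0 (t60) 0 0 0 0 0 (t71) ∈ (sc f).G1) (hs : E f 0 0 0 (t39) (l40) (l41) (t44) (l45) 0 0 0 0 0 0 0 0 0 (t60) 0 0 0 0 0 (t71) * E f 0 0 0 (t39) (l40) (l41) (t44) (l45) 0 0 0 0 0 0 0 0 0 (t60) 0 0 0 0 0 (t71) = 1) : Res f (E f 0 0 0 (t39) (l40) (l41) (t44) (l45) 0 0 0 0 0 0 0 0 0 (t60) 0 0 0 0 0 (t71)) := by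
  exact AC d hp71 hm hs

theorem nE_F1_1_1_2 {l38 l40 l41 l45 t39 t44 t60 t71 : K} (hff : ∀ t, f (f t) = t) (it39 : f t39 = t39) (it44 : f t44 = t44) (it60 : f t60 = t60) (it71 : f t71 = t71) :
    nR [2] * E f 0 0 (l38) (t39) (l40) (l41) (t44) (l45) 0 0 0 0 0 0 0 0 0 (t60) 0 0 0 0 0 (t71) * (nR [2])⁻¹ = E f (l38) 0 0 (t44) ((f l40)) (l45) (t39) (l41) 0 0 0 0 0 0 0 0 0 (t60) 0 0 0 0 0 (t71) := by
  have h2 : (2 : K) = 0 := CharTwo.two_eq_zero
  have c38 := fun t : K => nR_at (l := [2]) (s := 38) (m := 36) (by decide +kernel) t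
  have c39 := fun t : K => nR_at (l := [2]) (s := 39) (m := 44) (by decide +kernel) t
  have c40 := fun t : K => nR_at (l := [2]) (s := 40) (m := 43) (by decide +kernel) t
  have c41 := fun t : K => nR_at (l := [2]) (s := 41) (m := 45) (by decide +kernel) t
  have c43 := fun t : K => nR_at (l := [2]) (s := 43) (m := 40) (by decide +kernel) t
  have c44 := fun t : K => nR_at (l := [2]) (s := 44) (m := 39) (by decide +kernel) t
  have c45 := fun t : K => nR_at (l := [2]) (s := 45) (m := 41) (by decide +kernel) t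
  have c57 := fun t : K => nR_at (l := [2]) (s := 57) (m := 56) (by decide +kernel) t
  have c58 := fun t : K => nR_at (l := [2]) (s := 58) (m := 59) (by decide +kernel) t
  have c59 := fun t : K => nR_at (l := [2]) (s := 59) (m := 58) (by decide +kernel) t
  have c60 := fun t : K => nR_at (l := [2]) (s := 60) (m := 60) (by decide +kernel) t
  have c71 := fun t : K => nR_at (l := [2]) (s := 71) (m := 71) (by decide +kernel) t
  unfold E
  rw [conj_W]
  simp only [map_zero, zero_mul, mul_zero, add_zero, zero_add, conj_x0, one_mul, c38, c39, c40, c41, c43, c44, c45, c57, c58, c59, c60, c71]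
  rw [← W_zero (K := K)]
  simp only [xW_36, xW_39, xW_40, xW_41, xW_43, xW_44, xW_45, xW_56, xW_58, xW_59, xW_60, xW_71, zero_mul, mul_zero, add_zero, zero_add]
  first
    | done
    | apply W_congr
      · (try simp only [map_add, map_mul, map_pow, map_zero, map_one, hff, it39, it44, it60, it71]) <;> linear_combination (0 : K) * h2
      · (try simp only [map_add, map_mul, map_pow, map_zero, map_one, hff, it39, it44, it60, it71]) <;> linear_combination (0 : K) * h2
      · (try simp only [map_add, map_mul, map_pow, map_zero, map_one, hff, it39, it44, it60, it71]) <;> linear_combination (0 : K) * h2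
      · (try simp only [map_add, map_mul, map_pow, map_zero, map_one, hff, it39, it44, it60, it71]) <;> linear_combination (0 : K) * h2
      · (try simp only [map_add, map_mul, map_pow, map_zero, map_one, hff, it39, it44, it60, it71]) <;> linear_combination (0 : K) * h2
      · (try simp only [map_add, map_mul, map_pow, map_zero, map_one, hff, it39, it44, it60, it71]) <;> linear_combination (0 : K) * h2
      · (try simp only [map_add, map_mul, map_pow, map_zero, map_one, hff, it39, it44, it60, it71]) <;> linear_combination (0 : K) * h2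
      · (try simp only [map_add, map_mul, map_pow, map_zero, map_one, hff, it39, it44, it60, it71]) <;> linear_combination (0 : K) * h2
      · (try simp only [map_add, map_mul, map_pow, map_zero, map_one, hff, it39, it44, it60, it71]) <;> linear_combination (0 : K) * h2
      · (try simp only [map_add, map_mul, map_pow, map_zero, map_one, hff, it39, it44, it60, it71]) <;> linear_combination (0 : K) * h2
      · (try simp only [map_add, map_mul, map_pow, map_zero, map_one, hff, it39, it44, it60, it71]) <;> linear_combination (0 : K) * h2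
      · (try simp only [map_add, map_mul, map_pow, map_zero, map_one, hff, it39, it44, it60, it71]) <;> linear_combination (0 : K) * h2
      · (try simp only [map_add, map_mul, map_pow, map_zero, map_one, hff, it39, it44, it60, it71]) <;> linear_combination (0 : K) * h2
      · (try simp only [map_add, map_mul, map_pow, map_zero, map_one, hff, it39, it44, it60, it71]) <;> linear_combination (0 : K) * h2
      · (try simp only [map_add, map_mul, map_pow, map_zero, map_one, hff, it39, it44, it60, it71]) <;> linear_combination (0 : K) * h2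
      · (try simp only [map_add, map_mul, map_pow, map_zero, map_one, hff, it39, it44, it60, it71]) <;> linear_combination (0 : K) * h2
      · (try simp only [map_add, map_mul, map_pow, map_zero, map_one, hff, it39, it44, it60, it71]) <;> linear_combination (0 : K) * h2
      · (try simp only [map_add, map_mul, map_pow, map_zero, map_one, hff, it39, it44, it60, it71]) <;> linear_combination (0 : K) * h2
      · (try simp only [map_add, map_mul, map_pow, map_zero, map_one, hff, it39, it44, it60, it71]) <;> linear_combination (0 : K) * h2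
      · (try simp only [map_add, map_mul, map_pow, map_zero, map_one, hff, it39, it44, it60, it71]) <;> linear_combination (0 : K) * h2
      · (try simp only [map_add, map_mul, map_pow, map_zero, map_one, hff, it39, it44, it60, it71]) <;> linear_combination (0 : K) * h2
      · (try simp only [map_add, map_mul, map_pow, map_zero, map_one, hff, it39, it44, it60, it71]) <;> linear_combination (0 : K) * h2
      · (try simp only [map_add, map_mul, map_pow, map_zero, map_one, hff, it39, it44, it60, it71]) <;> linear_combination (0 : K) * h2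
      · (try simp only [map_add, map_mul, map_pow, map_zero, map_one, hff, it39, it44, it60, it71]) <;> linear_combination (0 : K) * h2
      · (try simp only [map_add, map_mul, map_pow, map_zero, map_one, hff, it39, it44, it60, it71]) <;> linear_combination (0 : K) * h2
      · (try simp only [map_add, map_mul, map_pow, map_zero, map_one, hff, it39, it44, it60, it71]) <;> linear_combination (0 : K) * h2
      · (try simp only [map_add, map_mul, map_pow, map_zero, map_one, hff, it39, it44, it60, it71]) <;> linear_combination (0 : K) * h2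
      · (try simp only [map_add, map_mul, map_pow, map_zero, map_one, hff, it39, it44, it60, it71]) <;> linear_combination (0 : K) * h2
      · (try simp only [map_add, map_mul, map_pow, map_zero, map_one, hff, it39, it44, it60, it71]) <;> linear_combination (0 : K) * h2
      · (try simp only [map_add, map_mul, map_pow, map_zero, map_one, hff, it39, it44, it60, it71]) <;> linear_combination (0 : K) * h2
      · (try simp only [map_add, map_mul, map_pow, map_zero, map_one, hff, it39, it44, it60, it71]) <;> linear_combination (0 : K) * h2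
      · (try simp only [map_add, map_mul, map_pow, map_zero, map_one, hff, it39, it44, it60, it71]) <;> linear_combination (0 : K) * h2
      · (try simp only [map_add, map_mul, map_pow, map_zero, map_one, hff, it39, it44, it60, it71]) <;> linear_combination (0 : K) * h2
      · (try simp only [map_add, map_mul, map_pow, map_zero, map_one, hff, it39, it44, it60, it71]) <;> linear_combination (0 : K) * h2
      · (try simp only [map_add, map_mul, map_pow, map_zero, map_one, hff, it39, it44, it60, it71]) <;> linear_combination (0 : K) * h2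
      · (try simp only [map_add, map_mul, map_pow, map_zero, map_one, hff, it39, it44, it60, it71]) <;> linear_combination (0 : K) * h2

theorem st_F1_1_2 {l36 l40 l41 l45 t39 t44 t60 t71 y : K} (hff : ∀ t, f (f t) = t) (it39 : f t39 = t39) (it44 : f t44 = t44) (it60 : f t60 = t60) (it71 : f t71 = t71) :
    E f 0 (y) 0 0 0 0 0 0 0 0 0 0 0 0 0 0 0 0 0 0 0 0 0 0 * E f (l36) 0 ((l36) * y) (t39) (l40) (l41) (t44) (l45) 0 0 0 0 0 0 0 0 0 (t60) 0 0 0 0 0 (t71) = E f (l36) 0 0 (t39) (l40 + t39*y) (l41) (t44 + l40*(f y) + y*(f l40) + t39*y*(f y)) (l45 + l41*(f y)) 0 0 0 0 0 0 0 0 0 (t60) 0 0 0 0 0 (t71) * E f 0 (y) 0 0 0 0 0 0 0 0 0 0 0 0 0 0 0 0 0 0 0 0 0 0 := by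
  have h2 : (2 : K) = 0 := CharTwo.two_eq_zero
  unfold E
  rw [W_mul, W_mul]
  apply W_congr
  · (try simp only [map_add, map_mul, map_pow, map_zero, map_one, hff, it39, it44, it60, it71]) <;> linear_combination (0 : K) * h2
  · (try simp only [map_add, map_mul, map_pow, map_zero, map_one, hff, it39, it44, it60, it71]) <;> linear_combination (0 : K) * h2
  · (try simp only [map_add, map_mul, map_pow, map_zero, map_one, hff, it39, it44, it60, it71]) <;> linear_combination (l36*y) * h2
  · (try simp only [map_add, map_mul, map_pow, map_zero, map_one, hff, it39, it44, it60, it71]) <;> linear_combination (0 : K) * h2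
  · (try simp only [map_add, map_mul, map_pow, map_zero, map_one, hff, it39, it44, it60, it71]) <;> linear_combination (-t39*y) * h2
  · (try simp only [map_add, map_mul, map_pow, map_zero, map_one, hff, it39, it44, it60, it71]) <;> linear_combination (0 : K) * h2
  · (try simp only [map_add, map_mul, map_pow, map_zero, map_one, hff, it39, it44, it60, it71]) <;> linear_combination (0 : K) * h2
  · (try simp only [map_add, map_mul, map_pow, map_zero, map_one, hff, it39, it44, it60, it71]) <;> linear_combination (0 : K) * h2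
  · (try simp only [map_add, map_mul, map_pow, map_zero, map_one, hff, it39, it44, it60, it71]) <;> linear_combination (-y*(f l40) - t39*y*(f y)) * h2
  · (try simp only [map_add, map_mul, map_pow, map_zero, map_one, hff, it39, it44, it60, it71]) <;> linear_combination (0 : K) * h2
  · (try simp only [map_add, map_mul, map_pow, map_zero, map_one, hff, it39, it44, it60, it71]) <;> linear_combination (0 : K) * h2
  · (try simp only [map_add, map_mul, map_pow, map_zero, map_one, hff, it39, it44, it60, it71]) <;> linear_combination (0 : K) * h2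
  · (try simp only [map_add, map_mul, map_pow, map_zero, map_one, hff, it39, it44, it60, it71]) <;> linear_combination (0 : K) * h2
  · (try simp only [map_add, map_mul, map_pow, map_zero, map_one, hff, it39, it44, it60, it71]) <;> linear_combination (0 : K) * h2
  · (try simp only [map_add, map_mul, map_pow, map_zero, map_one, hff, it39, it44, it60, it71]) <;> linear_combination (0 : K) * h2
  · (try simp only [map_add, map_mul, map_pow, map_zero, map_one, hff, it39, it44, it60, it71]) <;> linear_combination (0 : K) * h2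
  · (try simp only [map_add, map_mul, map_pow, map_zero, map_one, hff, it39, it44, it60, it71]) <;> linear_combination (0 : K) * h2
  · (try simp only [map_add, map_mul, map_pow, map_zero, map_one, hff, it39, it44, it60, it71]) <;> linear_combination (0 : K) * h2
  · (try simp only [map_add, map_mul, map_pow, map_zero, map_one, hff, it39, it44, it60, it71]) <;> linear_combination (0 : K) * h2
  · (try simp only [map_add, map_mul, map_pow, map_zero, map_one, hff, it39, it44, it60, it71]) <;> linear_combination (0 : K) * h2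
  · (try simp only [map_add, map_mul, map_pow, map_zero, map_one, hff, it39, it44, it60, it71]) <;> linear_combination (0 : K) * h2
  · (try simp only [map_add, map_mul, map_pow, map_zero, map_one, hff, it39, it44, it60, it71]) <;> linear_combination (0 : K) * h2
  · (try simp only [map_add, map_mul, map_pow, map_zero, map_one, hff, it39, it44, it60, it71]) <;> linear_combination (0 : K) * h2
  · (try simp only [map_add, map_mul, map_pow, map_zero, map_one, hff, it39, it44, it60, it71]) <;> linear_combination (-y*(f l41) - y*(f l36)*(f l40) - t39*y*(f l36)*(f y)) * h2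
  · (try simp only [map_add, map_mul, map_pow, map_zero, map_one, hff, it39, it44, it60, it71]) <;> linear_combination (0 : K) * h2
  · (try simp only [map_add, map_mul, map_pow, map_zero, map_one, hff, it39, it44, it60, it71]) <;> linear_combination (0 : K) * h2
  · (try simp only [map_add, map_mul, map_pow, map_zero, map_one, hff, it39, it44, it60, it71]) <;> linear_combination (0 : K) * h2
  · (try simp only [map_add, map_mul, map_pow, map_zero, map_one, hff, it39, it44, it60, it71]) <;> linear_combination (0 : K) * h2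
  · (try simp only [map_add, map_mul, map_pow, map_zero, map_one, hff, it39, it44, it60, it71]) <;> linear_combination (0 : K) * h2
  · (try simp only [map_add, map_mul, map_pow, map_zero, map_one, hff, it39, it44, it60, it71]) <;> linear_combination (0 : K) * h2
  · (try simp only [map_add, map_mul, map_pow, map_zero, map_one, hff, it39, it44, it60, it71]) <;> linear_combination (0 : K) * h2
  · (try simp only [map_add, map_mul, map_pow, map_zero, map_one, hff, it39, it44, it60, it71]) <;> linear_combination (0 : K) * h2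
  · (try simp only [map_add, map_mul, map_pow, map_zero, map_one, hff, it39, it44, it60, it71]) <;> linear_combination (0 : K) * h2
  · (try simp only [map_add, map_mul, map_pow, map_zero, map_one, hff, it39, it44, it60, it71]) <;> linear_combination (0 : K) * h2
  · (try simp only [map_add, map_mul, map_pow, map_zero, map_one, hff, it39, it44, it60, it71]) <;> linear_combination (0 : K) * h2
  · (try simp only [map_add, map_mul, map_pow, map_zero, map_one, hff, it39, it44, it60, it71]) <;> linear_combination (0 : K) * h2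

theorem st_F1_1_2_1 {l36 l40 l45 t39 t44 t60 t71 y : K} (hff : ∀ t, f (f t) = t) (it39 : f t39 = t39) (it44 : f t44 = t44) (it60 : f t60 = t60) (it71 : f t71 = t71) :
    E f 0 0 0 0 (y) 0 0 0 0 0 0 0 0 0 0 0 0 0 0 0 0 0 0 0 * E f (l36) 0 0 (t39) (l40) ((l36) * y) (t44) (l45) 0 0 0 0 0 0 0 0 0 (t60) 0 0 0 0 0 (t71) = E f (l36) 0 0 (t39) (l40) 0 (t44) (l45) 0 0 0 0 0 0 0 0 0 (t60) 0 0 0 0 0 (t71) * E f 0 0 0 0 (y) 0 0 0 0 0 0 0 0 0 0 0 0 0 0 0 0 0 0 0 := by
  have h2 : (2 : K) = 0 := CharTwo.two_eq_zero
  unfold E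
  rw [W_mul, W_mul]
  apply W_congr
  · (try simp only [map_add, map_mul, map_pow, map_zero, map_one, hff, it39, it44, it60, it71]) <;> linear_combination (0 : K) * h2
  · (try simp only [map_add, map_mul, map_pow, map_zero, map_one, hff, it39, it44, it60, it71]) <;> linear_combination (0 : K) * h2
  · (try simp only [map_add, map_mul, map_pow, map_zero, map_one, hff, it39, it44, it60, it71]) <;> linear_combination (0 : K) * h2
  · (try simp only [map_add, map_mul, map_pow, map_zero, map_one, hff, it39, it44, it60, it71]) <;> linear_combination (0 : K) * h2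
  · (try simp only [map_add, map_mul, map_pow, map_zero, map_one, hff, it39, it44, it60, it71]) <;> linear_combination (0 : K) * h2
  · (try simp only [map_add, map_mul, map_pow, map_zero, map_one, hff, it39, it44, it60, it71]) <;> linear_combination (l36*y) * h2
  · (try simp only [map_add, map_mul, map_pow, map_zero, map_one, hff, it39, it44, it60, it71]) <;> linear_combination (0 : K) * h2
  · (try simp only [map_add, map_mul, map_pow, map_zero, map_one, hff, it39, it44, it60, it71]) <;> linear_combination (0 : K) * h2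
  · (try simp only [map_add, map_mul, map_pow, map_zero, map_one, hff, it39, it44, it60, it71]) <;> linear_combination (0 : K) * h2
  · (try simp only [map_add, map_mul, map_pow, map_zero, map_one, hff, it39, it44, it60, it71]) <;> linear_combination (0 : K) * h2
  · (try simp only [map_add, map_mul, map_pow, map_zero, map_one, hff, it39, it44, it60, it71]) <;> linear_combination (0 : K) * h2
  · (try simp only [map_add, map_mul, map_pow, map_zero, map_one, hff, it39, it44, it60, it71]) <;> linear_combination (0 : K) * h2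
  · (try simp only [map_add, map_mul, map_pow, map_zero, map_one, hff, it39, it44, it60, it71]) <;> linear_combination (0 : K) * h2
  · (try simp only [map_add, map_mul, map_pow, map_zero, map_one, hff, it39, it44, it60, it71]) <;> linear_combination (0 : K) * h2
  · (try simp only [map_add, map_mul, map_pow, map_zero, map_one, hff, it39, it44, it60, it71]) <;> linear_combination (0 : K) * h2
  · (try simp only [map_add, map_mul, map_pow, map_zero, map_one, hff, it39, it44, it60, it71]) <;> linear_combination (0 : K) * h2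
  · (try simp only [map_add, map_mul, map_pow, map_zero, map_one, hff, it39, it44, it60, it71]) <;> linear_combination (0 : K) * h2
  · (try simp only [map_add, map_mul, map_pow, map_zero, map_one, hff, it39, it44, it60, it71]) <;> linear_combination (0 : K) * h2
  · (try simp only [map_add, map_mul, map_pow, map_zero, map_one, hff, it39, it44, it60, it71]) <;> linear_combination (0 : K) * h2
  · (try simp only [map_add, map_mul, map_pow, map_zero, map_one, hff, it39, it44, it60, it71]) <;> linear_combination (0 : K) * h2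
  · (try simp only [map_add, map_mul, map_pow, map_zero, map_one, hff, it39, it44, it60, it71]) <;> linear_combination (0 : K) * h2
  · (try simp only [map_add, map_mul, map_pow, map_zero, map_one, hff, it39, it44, it60, it71]) <;> linear_combination (0 : K) * h2
  · (try simp only [map_add, map_mul, map_pow, map_zero, map_one, hff, it39, it44, it60, it71]) <;> linear_combination (0 : K) * h2
  · (try simp only [map_add, map_mul, map_pow, map_zero, map_one, hff, it39, it44, it60, it71]) <;> linear_combination (0 : K) * h2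
  · (try simp only [map_add, map_mul, map_pow, map_zero, map_one, hff, it39, it44, it60, it71]) <;> linear_combination (0 : K) * h2
  · (try simp only [map_add, map_mul, map_pow, map_zero, map_one, hff, it39, it44, it60, it71]) <;> linear_combination (0 : K) * h2
  · (try simp only [map_add, map_mul, map_pow, map_zero, map_one, hff, it39, it44, it60, it71]) <;> linear_combination (0 : K) * h2
  · (try simp only [map_add, map_mul, map_pow, map_zero, map_one, hff, it39, it44, it60, it71]) <;> linear_combination (0 : K) * h2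
  · (try simp only [map_add, map_mul, map_pow, map_zero, map_one, hff, it39, it44, it60, it71]) <;> linear_combination (0 : K) * h2
  · (try simp only [map_add, map_mul, map_pow, map_zero, map_one, hff, it39, it44, it60, it71]) <;> linear_combination (0 : K) * h2
  · (try simp only [map_add, map_mul, map_pow, map_zero, map_one, hff, it39, it44, it60, it71]) <;> linear_combination (0 : K) * h2
  · (try simp only [map_add, map_mul, map_pow, map_zero, map_one, hff, it39, it44, it60, it71]) <;> linear_combination (0 : K) * h2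
  · (try simp only [map_add, map_mul, map_pow, map_zero, map_one, hff, it39, it44, it60, it71]) <;> linear_combination (0 : K) * h2
  · (try simp only [map_add, map_mul, map_pow, map_zero, map_one, hff, it39, it44, it60, it71]) <;> linear_combination (0 : K) * h2
  · (try simp only [map_add, map_mul, map_pow, map_zero, map_one, hff, it39, it44, it60, it71]) <;> linear_combination (0 : K) * h2
  · (try simp only [map_add, map_mul, map_pow, map_zero, map_one, hff, it39, it44, it60, it71]) <;> linear_combination (0 : K) * h2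

theorem st_F1_1_2_1_1_1_1 {l36 t39 t60 t71 w : K} (hff : ∀ t, f (f t) = t) (it39 : f t39 = t39) (it60 : f t60 = t60) (it71 : f t71 = t71) (iw : f w = w) :
    E f 0 0 0 0 0 0 (w) 0 0 0 0 0 0 0 0 0 0 0 0 0 0 0 0 0 * E f (l36) 0 0 (t39) 0 0 0 ((l36) * w) 0 0 0 0 0 0 0 0 0 (t60) 0 0 0 0 0 (t71) = E f (l36) 0 0 (t39) 0 0 0 0 0 0 0 0 0 0 0 0 0 (t60 + l36*w*(f l36)) 0 0 0 0 0 (t71) * E f 0 0 0 0 0 0 (w) 0 0 0 0 0 0 0 0 0 0 0 0 0 0 0 0 0 := by
  have h2 : (2 : K) = 0 := CharTwo.two_eq_zero
  unfold E
  rw [W_mul, W_mul]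
  apply W_congr
  · (try simp only [map_add, map_mul, map_pow, map_zero, map_one, hff, it39, it60, it71, iw]) <;> linear_combination (0 : K) * h2
  · (try simp only [map_add, map_mul, map_pow, map_zero, map_one, hff, it39, it60, it71, iw]) <;> linear_combination (0 : K) * h2
  · (try simp only [map_add, map_mul, map_pow, map_zero, map_one, hff, it39, it60, it71, iw]) <;> linear_combination (0 : K) * h2
  · (try simp only [map_add, map_mul, map_pow, map_zero, map_one, hff, it39, it60, it71, iw]) <;> linear_combination (0 : K) * h2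
  · (try simp only [map_add, map_mul, map_pow, map_zero, map_one, hff, it39, it60, it71, iw]) <;> linear_combination (0 : K) * h2
  · (try simp only [map_add, map_mul, map_pow, map_zero, map_one, hff, it39, it60, it71, iw]) <;> linear_combination (0 : K) * h2
  · (try simp only [map_add, map_mul, map_pow, map_zero, map_one, hff, it39, it60, it71, iw]) <;> linear_combination (0 : K) * h2
  · (try simp only [map_add, map_mul, map_pow, map_zero, map_one, hff, it39, it60, it71, iw]) <;> linear_combination (0 : K) * h2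
  · (try simp only [map_add, map_mul, map_pow, map_zero, map_one, hff, it39, it60, it71, iw]) <;> linear_combination (0 : K) * h2
  · (try simp only [map_add, map_mul, map_pow, map_zero, map_one, hff, it39, it60, it71, iw]) <;> linear_combination (l36*w) * h2
  · (try simp only [map_add, map_mul, map_pow, map_zero, map_one, hff, it39, it60, it71, iw]) <;> linear_combination (0 : K) * h2
  · (try simp only [map_add, map_mul, map_pow, map_zero, map_one, hff, it39, it60, it71, iw]) <;> linear_combination (0 : K) * h2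
  · (try simp only [map_add, map_mul, map_pow, map_zero, map_one, hff, it39, it60, it71, iw]) <;> linear_combination (0 : K) * h2
  · (try simp only [map_add, map_mul, map_pow, map_zero, map_one, hff, it39, it60, it71, iw]) <;> linear_combination (0 : K) * h2
  · (try simp only [map_add, map_mul, map_pow, map_zero, map_one, hff, it39, it60, it71, iw]) <;> linear_combination (0 : K) * h2
  · (try simp only [map_add, map_mul, map_pow, map_zero, map_one, hff, it39, it60, it71, iw]) <;> linear_combination (0 : K) * h2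
  · (try simp only [map_add, map_mul, map_pow, map_zero, map_one, hff, it39, it60, it71, iw]) <;> linear_combination (0 : K) * h2
  · (try simp only [map_add, map_mul, map_pow, map_zero, map_one, hff, it39, it60, it71, iw]) <;> linear_combination (0 : K) * h2
  · (try simp only [map_add, map_mul, map_pow, map_zero, map_one, hff, it39, it60, it71, iw]) <;> linear_combination (0 : K) * h2
  · (try simp only [map_add, map_mul, map_pow, map_zero, map_one, hff, it39, it60, it71, iw]) <;> linear_combination (0 : K) * h2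
  · (try simp only [map_add, map_mul, map_pow, map_zero, map_one, hff, it39, it60, it71, iw]) <;> linear_combination (0 : K) * h2
  · (try simp only [map_add, map_mul, map_pow, map_zero, map_one, hff, it39, it60, it71, iw]) <;> linear_combination (0 : K) * h2
  · (try simp only [map_add, map_mul, map_pow, map_zero, map_one, hff, it39, it60, it71, iw]) <;> linear_combination (0 : K) * h2
  · (try simp only [map_add, map_mul, map_pow, map_zero, map_one, hff, it39, it60, it71, iw]) <;> linear_combination (0 : K) * h2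
  · (try simp only [map_add, map_mul, map_pow, map_zero, map_one, hff, it39, it60, it71, iw]) <;> linear_combination (0 : K) * h2
  · (try simp only [map_add, map_mul, map_pow, map_zero, map_one, hff, it39, it60, it71, iw]) <;> linear_combination (0 : K) * h2
  · (try simp only [map_add, map_mul, map_pow, map_zero, map_one, hff, it39, it60, it71, iw]) <;> linear_combination (0 : K) * h2
  · (try simp only [map_add, map_mul, map_pow, map_zero, map_one, hff, it39, it60, it71, iw]) <;> linear_combination (0 : K) * h2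
  · (try simp only [map_add, map_mul, map_pow, map_zero, map_one, hff, it39, it60, it71, iw]) <;> linear_combination (0 : K) * h2
  · (try simp only [map_add, map_mul, map_pow, map_zero, map_one, hff, it39, it60, it71, iw]) <;> linear_combination (0 : K) * h2
  · (try simp only [map_add, map_mul, map_pow, map_zero, map_one, hff, it39, it60, it71, iw]) <;> linear_combination (0 : K) * h2
  · (try simp only [map_add, map_mul, map_pow, map_zero, map_one, hff, it39, it60, it71, iw]) <;> linear_combination (0 : K) * h2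
  · (try simp only [map_add, map_mul, map_pow, map_zero, map_one, hff, it39, it60, it71, iw]) <;> linear_combination (0 : K) * h2
  · (try simp only [map_add, map_mul, map_pow, map_zero, map_one, hff, it39, it60, it71, iw]) <;> linear_combination (0 : K) * h2
  · (try simp only [map_add, map_mul, map_pow, map_zero, map_one, hff, it39, it60, it71, iw]) <;> linear_combination (0 : K) * h2
  · (try simp only [map_add, map_mul, map_pow, map_zero, map_one, hff, it39, it60, it71, iw]) <;> linear_combination (0 : K) * h2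

theorem st_F1_1_2_1_1_1_1_1 {l36 t39 t71 y : K} (hff : ∀ t, f (f t) = t) (it39 : f t39 = t39) (it71 : f t71 = t71) :
    E f 0 0 0 0 0 0 0 (y) 0 0 0 0 0 0 0 0 0 0 0 0 0 0 0 0 * E f (l36) 0 0 (t39) 0 0 0 0 0 0 0 0 0 0 0 0 0 ((l36) * f y + f (l36) * y) 0 0 0 0 0 (t71) = E f (l36) 0 0 (t39) 0 0 0 0 0 0 0 0 0 0 0 0 0 0 0 0 0 0 0 (t71) * E f 0 0 0 0 0 0 0 (y) 0 0 0 0 0 0 0 0 0 0 0 0 0 0 0 0 := by
  have h2 : (2 : K) = 0 := CharTwo.two_eq_zero
  unfold E
  rw [W_mul, W_mul]
  apply W_congr
  · (try simp only [map_add, map_mul, map_pow, map_zero, map_one, hff, it39, it71]) <;> linear_combination (0 : K) * h2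
  · (try simp only [map_add, map_mul, map_pow, map_zero, map_one, hff, it39, it71]) <;> linear_combination (0 : K) * h2
  · (try simp only [map_add, map_mul, map_pow, map_zero, map_one, hff, it39, it71]) <;> linear_combination (0 : K) * h2
  · (try simp only [map_add, map_mul, map_pow, map_zero, map_one, hff, it39, it71]) <;> linear_combination (0 : K) * h2
  · (try simp only [map_add, map_mul, map_pow, map_zero, map_one, hff, it39, it71]) <;> linear_combination (0 : K) * h2
  · (try simp only [map_add, map_mul, map_pow, map_zero, map_one, hff, it39, it71]) <;> linear_combination (0 : K) * h2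
  · (try simp only [map_add, map_mul, map_pow, map_zero, map_one, hff, it39, it71]) <;> linear_combination (0 : K) * h2
  · (try simp only [map_add, map_mul, map_pow, map_zero, map_one, hff, it39, it71]) <;> linear_combination (0 : K) * h2
  · (try simp only [map_add, map_mul, map_pow, map_zero, map_one, hff, it39, it71]) <;> linear_combination (0 : K) * h2
  · (try simp only [map_add, map_mul, map_pow, map_zero, map_one, hff, it39, it71]) <;> linear_combination (0 : K) * h2
  · (try simp only [map_add, map_mul, map_pow, map_zero, map_one, hff, it39, it71]) <;> linear_combination (0 : K) * h2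
  · (try simp only [map_add, map_mul, map_pow, map_zero, map_one, hff, it39, it71]) <;> linear_combination (0 : K) * h2
  · (try simp only [map_add, map_mul, map_pow, map_zero, map_one, hff, it39, it71]) <;> linear_combination (0 : K) * h2
  · (try simp only [map_add, map_mul, map_pow, map_zero, map_one, hff, it39, it71]) <;> linear_combination (0 : K) * h2
  · (try simp only [map_add, map_mul, map_pow, map_zero, map_one, hff, it39, it71]) <;> linear_combination (0 : K) * h2
  · (try simp only [map_add, map_mul, map_pow, map_zero, map_one, hff, it39, it71]) <;> linear_combination (0 : K) * h2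
  · (try simp only [map_add, map_mul, map_pow, map_zero, map_one, hff, it39, it71]) <;> linear_combination (0 : K) * h2
  · (try simp only [map_add, map_mul, map_pow, map_zero, map_one, hff, it39, it71]) <;> linear_combination (0 : K) * h2
  · (try simp only [map_add, map_mul, map_pow, map_zero, map_one, hff, it39, it71]) <;> linear_combination (0 : K) * h2
  · (try simp only [map_add, map_mul, map_pow, map_zero, map_one, hff, it39, it71]) <;> linear_combination (0 : K) * h2
  · (try simp only [map_add, map_mul, map_pow, map_zero, map_one, hff, it39, it71]) <;> linear_combination (0 : K) * h2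
  · (try simp only [map_add, map_mul, map_pow, map_zero, map_one, hff, it39, it71]) <;> linear_combination (0 : K) * h2
  · (try simp only [map_add, map_mul, map_pow, map_zero, map_one, hff, it39, it71]) <;> linear_combination (0 : K) * h2
  · (try simp only [map_add, map_mul, map_pow, map_zero, map_one, hff, it39, it71]) <;> linear_combination (0 : K) * h2
  · (try simp only [map_add, map_mul, map_pow, map_zero, map_one, hff, it39, it71]) <;> linear_combination (l36*(f y)) * h2
  · (try simp only [map_add, map_mul, map_pow, map_zero, map_one, hff, it39, it71]) <;> linear_combination (0 : K) * h2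
  · (try simp only [map_add, map_mul, map_pow, map_zero, map_one, hff, it39, it71]) <;> linear_combination (0 : K) * h2
  · (try simp only [map_add, map_mul, map_pow, map_zero, map_one, hff, it39, it71]) <;> linear_combination (0 : K) * h2
  · (try simp only [map_add, map_mul, map_pow, map_zero, map_one, hff, it39, it71]) <;> linear_combination (0 : K) * h2
  · (try simp only [map_add, map_mul, map_pow, map_zero, map_one, hff, it39, it71]) <;> linear_combination (0 : K) * h2
  · (try simp only [map_add, map_mul, map_pow, map_zero, map_one, hff, it39, it71]) <;> linear_combination (0 : K) * h2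
  · (try simp only [map_add, map_mul, map_pow, map_zero, map_one, hff, it39, it71]) <;> linear_combination (0 : K) * h2
  · (try simp only [map_add, map_mul, map_pow, map_zero, map_one, hff, it39, it71]) <;> linear_combination (0 : K) * h2
  · (try simp only [map_add, map_mul, map_pow, map_zero, map_one, hff, it39, it71]) <;> linear_combination (0 : K) * h2
  · (try simp only [map_add, map_mul, map_pow, map_zero, map_one, hff, it39, it71]) <;> linear_combination (0 : K) * h2
  · (try simp only [map_add, map_mul, map_pow, map_zero, map_one, hff, it39, it71]) <;> linear_combination (0 : K) * h2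

theorem nE_F1_1_2_1_1_1_1_1_1 {l36 t39 t71 : K} (hff : ∀ t, f (f t) = t) (it39 : f t39 = t39) (it71 : f t71 = t71) :
    nR [2] * E f (l36) 0 0 (t39) 0 0 0 0 0 0 0 0 0 0 0 0 0 0 0 0 0 0 0 (t71) * (nR [2])⁻¹ = E f 0 0 (l36) 0 0 0 (t39) 0 0 0 0 0 0 0 0 0 0 0 0 0 0 0 0 (t71) := by
  have h2 : (2 : K) = 0 := CharTwo.two_eq_zero
  have c36 := fun t : K => nR_at (l := [2]) (s := 36) (m := 38) (by decide +kernel) t
  have c39 := fun t : K => nR_at (l := [2]) (s := 39) (m := 44) (by decide +kernel) t
  have c56 := fun t : K => nR_at (l := [2]) (s := 56) (m := 57) (by decide +kernel) t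
  have c71 := fun t : K => nR_at (l := [2]) (s := 71) (m := 71) (by decide +kernel) t
  unfold E
  rw [conj_W]
  simp only [map_zero, zero_mul, mul_zero, add_zero, zero_add, conj_x0, one_mul, c36, c39, c56, c71]
  rw [← W_zero (K := K)]
  simp only [xW_38, xW_44, xW_57, xW_71, zero_mul, mul_zero, add_zero, zero_add]
  first
    | done
    | apply W_congr
      · (try simp only [map_add, map_mul, map_pow, map_zero, map_one, hff, it39, it71]) <;> linear_combination (0 : K) * h2
      · (try simp only [map_add, map_mul, map_pow, map_zero, map_one, hff, it39, it71]) <;> linear_combination (0 : K) * h2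
      · (try simp only [map_add, map_mul, map_pow, map_zero, map_one, hff, it39, it71]) <;> linear_combination (0 : K) * h2
      · (try simp only [map_add, map_mul, map_pow, map_zero, map_one, hff, it39, it71]) <;> linear_combination (0 : K) * h2
      · (try simp only [map_add, map_mul, map_pow, map_zero, map_one, hff, it39, it71]) <;> linear_combination (0 : K) * h2
      · (try simp only [map_add, map_mul, map_pow, map_zero, map_one, hff, it39, it71]) <;> linear_combination (0 : K) * h2
      · (try simp only [map_add, map_mul, map_pow, map_zero, map_one, hff, it39, it71]) <;> linear_combination (0 : K) * h2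
      · (try simp only [map_add, map_mul, map_pow, map_zero, map_one, hff, it39, it71]) <;> linear_combination (0 : K) * h2
      · (try simp only [map_add, map_mul, map_pow, map_zero, map_one, hff, it39, it71]) <;> linear_combination (0 : K) * h2
      · (try simp only [map_add, map_mul, map_pow, map_zero, map_one, hff, it39, it71]) <;> linear_combination (0 : K) * h2
      · (try simp only [map_add, map_mul, map_pow, map_zero, map_one, hff, it39, it71]) <;> linear_combination (0 : K) * h2
      · (try simp only [map_add, map_mul, map_pow, map_zero, map_one, hff, it39, it71]) <;> linear_combination (0 : K) * h2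
      · (try simp only [map_add, map_mul, map_pow, map_zero, map_one, hff, it39, it71]) <;> linear_combination (0 : K) * h2
      · (try simp only [map_add, map_mul, map_pow, map_zero, map_one, hff, it39, it71]) <;> linear_combination (0 : K) * h2
      · (try simp only [map_add, map_mul, map_pow, map_zero, map_one, hff, it39, it71]) <;> linear_combination (0 : K) * h2
      · (try simp only [map_add, map_mul, map_pow, map_zero, map_one, hff, it39, it71]) <;> linear_combination (0 : K) * h2
      · (try simp only [map_add, map_mul, map_pow, map_zero, map_one, hff, it39, it71]) <;> linear_combination (0 : K) * h2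
      · (try simp only [map_add, map_mul, map_pow, map_zero, map_one, hff, it39, it71]) <;> linear_combination (0 : K) * h2
      · (try simp only [map_add, map_mul, map_pow, map_zero, map_one, hff, it39, it71]) <;> linear_combination (0 : K) * h2
      · (try simp only [map_add, map_mul, map_pow, map_zero, map_one, hff, it39, it71]) <;> linear_combination (0 : K) * h2
      · (try simp only [map_add, map_mul, map_pow, map_zero, map_one, hff, it39, it71]) <;> linear_combination (0 : K) * h2
      · (try simp only [map_add, map_mul, map_pow, map_zero, map_one, hff, it39, it71]) <;> linear_combination (0 : K) * h2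
      · (try simp only [map_add, map_mul, map_pow, map_zero, map_one, hff, it39, it71]) <;> linear_combination (0 : K) * h2
      · (try simp only [map_add, map_mul, map_pow, map_zero, map_one, hff, it39, it71]) <;> linear_combination (0 : K) * h2
      · (try simp only [map_add, map_mul, map_pow, map_zero, map_one, hff, it39, it71]) <;> linear_combination (0 : K) * h2
      · (try simp only [map_add, map_mul, map_pow, map_zero, map_one, hff, it39, it71]) <;> linear_combination (0 : K) * h2
      · (try simp only [map_add, map_mul, map_pow, map_zero, map_one, hff, it39, it71]) <;> linear_combination (0 : K) * h2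
      · (try simp only [map_add, map_mul, map_pow, map_zero, map_one, hff, it39, it71]) <;> linear_combination (0 : K) * h2
      · (try simp only [map_add, map_mul, map_pow, map_zero, map_one, hff, it39, it71]) <;> linear_combination (0 : K) * h2
      · (try simp only [map_add, map_mul, map_pow, map_zero, map_one, hff, it39, it71]) <;> linear_combination (0 : K) * h2
      · (try simp only [map_add, map_mul, map_pow, map_zero, map_one, hff, it39, it71]) <;> linear_combination (0 : K) * h2
      · (try simp only [map_add, map_mul, map_pow, map_zero, map_one, hff, it39, it71]) <;> linear_combination (0 : K) * h2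
      · (try simp only [map_add, map_mul, map_pow, map_zero, map_one, hff, it39, it71]) <;> linear_combination (0 : K) * h2
      · (try simp only [map_add, map_mul, map_pow, map_zero, map_one, hff, it39, it71]) <;> linear_combination (0 : K) * h2
      · (try simp only [map_add, map_mul, map_pow, map_zero, map_one, hff, it39, it71]) <;> linear_combination (0 : K) * h2
      · (try simp only [map_add, map_mul, map_pow, map_zero, map_one, hff, it39, it71]) <;> linear_combination (0 : K) * h2

theorem nE_F1_1_2_1_1_1_1_1_1_1 {l38 t44 t71 : K} (hff : ∀ t, f (f t) = t) (it44 : f t44 = t44) (it71 : f t71 = t71) :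
    nR [1] * E f 0 0 (l38) 0 0 0 (t44) 0 0 0 0 0 0 0 0 0 0 0 0 0 0 0 0 (t71) * (nR [1])⁻¹ = E f 0 0 0 0 0 (l38) (t44) 0 0 0 0 0 0 0 0 0 0 0 0 0 0 0 0 (t71) := by
  have h2 : (2 : K) = 0 := CharTwo.two_eq_zero
  have c38 := fun t : K => nR_at (l := [1]) (s := 38) (m := 41) (by decide +kernel) t
  have c44 := fun t : K => nR_at (l := [1]) (s := 44) (m := 44) (by decide +kernel) t
  have c57 := fun t : K => nR_at (l := [1]) (s := 57) (m := 58) (by decide +kernel) t
  have c71 := fun t : K => nR_at (l := [1]) (s := 71) (m := 71) (by decide +kernel) t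
  unfold E
  rw [conj_W]
  simp only [map_zero, zero_mul, mul_zero, add_zero, zero_add, conj_x0, one_mul, c38, c44, c57, c71]
  rw [← W_zero (K := K)]
  simp only [xW_41, xW_44, xW_58, xW_71, zero_mul, mul_zero, add_zero, zero_add]
  first
    | done
    | apply W_congr
      · (try simp only [map_add, map_mul, map_pow, map_zero, map_one, hff, it44, it71]) <;> linear_combination (0 : K) * h2
      · (try simp only [map_add, map_mul, map_pow, map_zero, map_one, hff, it44, it71]) <;> linear_combination (0 : K) * h2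
      · (try simp only [map_add, map_mul, map_pow, map_zero, map_one, hff, it44, it71]) <;> linear_combination (0 : K) * h2
      · (try simp only [map_add, map_mul, map_pow, map_zero, map_one, hff, it44, it71]) <;> linear_combination (0 : K) * h2
      · (try simp only [map_add, map_mul, map_pow, map_zero, map_one, hff, it44, it71]) <;> linear_combination (0 : K) * h2
      · (try simp only [map_add, map_mul, map_pow, map_zero, map_one, hff, it44, it71]) <;> linear_combination (0 : K) * h2
      · (try simp only [map_add, map_mul, map_pow, map_zero, map_one, hff, it44, it71]) <;> linear_combination (0 : K) * h2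
      · (try simp only [map_add, map_mul, map_pow, map_zero, map_one, hff, it44, it71]) <;> linear_combination (0 : K) * h2
      · (try simp only [map_add, map_mul, map_pow, map_zero, map_one, hff, it44, it71]) <;> linear_combination (0 : K) * h2
      · (try simp only [map_add, map_mul, map_pow, map_zero, map_one, hff, it44, it71]) <;> linear_combination (0 : K) * h2
      · (try simp only [map_add, map_mul, map_pow, map_zero, map_one, hff, it44, it71]) <;> linear_combination (0 : K) * h2
      · (try simp only [map_add, map_mul, map_pow, map_zero, map_one, hff, it44, it71]) <;> linear_combination (0 : K) * h2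
      · (try simp only [map_add, map_mul, map_pow, map_zero, map_one, hff, it44, it71]) <;> linear_combination (0 : K) * h2
      · (try simp only [map_add, map_mul, map_pow, map_zero, map_one, hff, it44, it71]) <;> linear_combination (0 : K) * h2
      · (try simp only [map_add, map_mul, map_pow, map_zero, map_one, hff, it44, it71]) <;> linear_combination (0 : K) * h2
      · (try simp only [map_add, map_mul, map_pow, map_zero, map_one, hff, it44, it71]) <;> linear_combination (0 : K) * h2
      · (try simp only [map_add, map_mul, map_pow, map_zero, map_one, hff, it44, it71]) <;> linear_combination (0 : K) * h2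
      · (try simp only [map_add, map_mul, map_pow, map_zero, map_one, hff, it44, it71]) <;> linear_combination (0 : K) * h2
      · (try simp only [map_add, map_mul, map_pow, map_zero, map_one, hff, it44, it71]) <;> linear_combination (0 : K) * h2
      · (try simp only [map_add, map_mul, map_pow, map_zero, map_one, hff, it44, it71]) <;> linear_combination (0 : K) * h2
      · (try simp only [map_add, map_mul, map_pow, map_zero, map_one, hff, it44, it71]) <;> linear_combination (0 : K) * h2
      · (try simp only [map_add, map_mul, map_pow, map_zero, map_one, hff, it44, it71]) <;> linear_combination (0 : K) * h2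
      · (try simp only [map_add, map_mul, map_pow, map_zero, map_one, hff, it44, it71]) <;> linear_combination (0 : K) * h2
      · (try simp only [map_add, map_mul, map_pow, map_zero, map_one, hff, it44, it71]) <;> linear_combination (0 : K) * h2
      · (try simp only [map_add, map_mul, map_pow, map_zero, map_one, hff, it44, it71]) <;> linear_combination (0 : K) * h2
      · (try simp only [map_add, map_mul, map_pow, map_zero, map_one, hff, it44, it71]) <;> linear_combination (0 : K) * h2
      · (try simp only [map_add, map_mul, map_pow, map_zero, map_one, hff, it44, it71]) <;> linear_combination (0 : K) * h2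
      · (try simp only [map_add, map_mul, map_pow, map_zero, map_one, hff, it44, it71]) <;> linear_combination (0 : K) * h2
      · (try simp only [map_add, map_mul, map_pow, map_zero, map_one, hff, it44, it71]) <;> linear_combination (0 : K) * h2
      · (try simp only [map_add, map_mul, map_pow, map_zero, map_one, hff, it44, it71]) <;> linear_combination (0 : K) * h2
      · (try simp only [map_add, map_mul, map_pow, map_zero, map_one, hff, it44, it71]) <;> linear_combination (0 : K) * h2
      · (try simp only [map_add, map_mul, map_pow, map_zero, map_one, hff, it44, it71]) <;> linear_combination (0 : K) * h2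
      · (try simp only [map_add, map_mul, map_pow, map_zero, map_one, hff, it44, it71]) <;> linear_combination (0 : K) * h2
      · (try simp only [map_add, map_mul, map_pow, map_zero, map_one, hff, it44, it71]) <;> linear_combination (0 : K) * h2
      · (try simp only [map_add, map_mul, map_pow, map_zero, map_one, hff, it44, it71]) <;> linear_combination (0 : K) * h2
      · (try simp only [map_add, map_mul, map_pow, map_zero, map_one, hff, it44, it71]) <;> linear_combination (0 : K) * h2

theorem F1_1_2_1_1_1_1_1_1_1_1 {l41 t44 t71 : K} (d : Dt f) (hp71 : t71 ≠ 0) (hm : E f 0 0 0 0 0 (l41) (t44) 0 0 0 0 0 0 0 0 0 0 0 0 0 0 0 0 (t71) ∈ (sc f).G1) (hs : E f 0 0 0 0 0 (l41) (t44) 0 0 0 0 0 0 0 0 0 0 0 0 0 0 0 0 (t71) * E f 0 0 0 0 0 (l41) (t44) 0 0 0 0 0 0 0 0 0 0 0 0 0 0 0 0 (t71) = 1) : Res f (E f 0 0 0 0 0 (l41) (t44) 0 0 0 0 0 0 0 0 0 0 0 0 0 0 0 0 (t71)) := by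
  exact AC d hp71 hm hs

theorem F1_1_2_1_1_1_1_1_1_1 {l38 t44 t71 : K} (d : Dt f) (hp71 : t71 ≠ 0) (hm : E f 0 0 (l38) 0 0 0 (t44) 0 0 0 0 0 0 0 0 0 0 0 0 0 0 0 0 (t71) ∈ (sc f).G1) (hs : E f 0 0 (l38) 0 0 0 (t44) 0 0 0 0 0 0 0 0 0 0 0 0 0 0 0 0 (t71) * E f 0 0 (l38) 0 0 0 (t44) 0 0 0 0 0 0 0 0 0 0 0 0 0 0 0 0 (t71) = 1) : Res f (E f 0 0 (l38) 0 0 0 (t44) 0 0 0 0 0 0 0 0 0 0 0 0 0 0 0 0 (t71)) := by
  obtain ⟨it39, it44, it46, it47, it51, it53, it60, it63, it65, it69, it70, it71⟩ := inv_of_mem d hm
  have c : Cj f (E f 0 0 (l38) 0 0 0 (t44) 0 0 0 0 0 0 0 0 0 0 0 0 0 0 0 0 (t71)) (E f 0 0 0 0 0 (l38) (t44) 0 0 0 0 0 0 0 0 0 0 0 0 0 0 0 0 (t71)) := cjN f (nR_mem f [1]) (nE_F1_1_2_1_1_1_1_1_1_1 d.hff it44 it71)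
  exact Res.of_cj f c (F1_1_2_1_1_1_1_1_1_1_1 d hp71 (c.mem f hm) (c.sq f hs))

theorem F1_1_2_1_1_1_1_1_1 {l36 t39 t71 : K} (d : Dt f) (hp71 : t71 ≠ 0) (hp36 : l36 ≠ 0) (hm : E f (l36) 0 0 (t39) 0 0 0 0 0 0 0 0 0 0 0 0 0 0 0 0 0 0 0 (t71) ∈ (sc f).G1) (hs : E f (l36) 0 0 (t39) 0 0 0 0 0 0 0 0 0 0 0 0 0 0 0 0 0 0 0 (t71) * E f (l36) 0 0 (t39) 0 0 0 0 0 0 0 0 0 0 0 0 0 0 0 0 0 0 0 (t71) = 1) : Res f (E f (l36) 0 0 (t39) 0 0 0 0 0 0 0 0 0 0 0 0 0 0 0 0 0 0 0 (t71)) := by
  obtain ⟨it39, it44, it46, it47, it51, it53, it60, it63, it65, it69, it70, it71⟩ := inv_of_mem d hm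
  have c : Cj f (E f (l36) 0 0 (t39) 0 0 0 0 0 0 0 0 0 0 0 0 0 0 0 0 0 0 0 (t71)) (E f 0 0 (l36) 0 0 0 (t39) 0 0 0 0 0 0 0 0 0 0 0 0 0 0 0 0 (t71)) := cjN f (nR_mem f [2]) (nE_F1_1_2_1_1_1_1_1_1 d.hff it39 it71)
  exact Res.of_cj f c (F1_1_2_1_1_1_1_1_1_1 d hp71 (c.mem f hm) (c.sq f hs))

theorem F1_1_2_1_1_1_1_1 {l36 t39 t60 t71 : K} (d : Dt f) (hp71 : t71 ≠ 0) (hp36 : l36 ≠ 0) (hm : E f (l36) 0 0 (t39) 0 0 0 0 0 0 0 0 0 0 0 0 0 (t60) 0 0 0 0 0 (t71) ∈ (sc f).G1) (hs : E f (l36) 0 0 (t39) 0 0 0 0 0 0 0 0 0 0 0 0 0 (t60) 0 0 0 0 0 (t71) * E f (l36) 0 0 (t39) 0 0 0 0 0 0 0 0 0 0 0 0 0 (t60) 0 0 0 0 0 (t71) = 1) : Res f (E f (l36) 0 0 (t39) 0 0 0 0 0 0 0 0 0 0 0 0 0 (t60) 0 0 0 0 0 (t71)) := by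
  obtain ⟨it39, it44, it46, it47, it51, it53, it60, it63, it65, it69, it70, it71⟩ := inv_of_mem d hm
  obtain ⟨y, rfl⟩ := solve_tr d hp36 it60
  have c : Cj f (E f (l36) 0 0 (t39) 0 0 0 0 0 0 0 0 0 0 0 0 0 ((l36) * f y + f (l36) * y) 0 0 0 0 0 (t71)) (E f (l36) 0 0 (t39) 0 0 0 0 0 0 0 0 0 0 0 0 0 0 0 0 0 0 0 (t71)) := cjS f (E_mem_G1 d (map_zero f) (map_zero f) (map_zero f) (map_zero f) (map_zero f) (map_zero f) (map_zero f) (map_zero f) (map_zero f) (map_zero f) (map_zero f) (map_zero f) 0 0 0 0 0 (y) 0 0 0 0 0 0) (st_F1_1_2_1_1_1_1_1 d.hff it39 it71)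
  exact Res.of_cj f c (F1_1_2_1_1_1_1_1_1 d hp71 hp36 (c.mem f hm) (c.sq f hs))

theorem F1_1_2_1_1_1_1 {l36 l45 t39 t60 t71 : K} (d : Dt f) (hp71 : t71 ≠ 0) (hp36 : l36 ≠ 0) (hm : E f (l36) 0 0 (t39) 0 0 0 (l45) 0 0 0 0 0 0 0 0 0 (t60) 0 0 0 0 0 (t71) ∈ (sc f).G1) (hs : E f (l36) 0 0 (t39) 0 0 0 (l45) 0 0 0 0 0 0 0 0 0 (t60) 0 0 0 0 0 (t71) * E f (l36) 0 0 (t39) 0 0 0 (l45) 0 0 0 0 0 0 0 0 0 (t60) 0 0 0 0 0 (t71) = 1) : Res f (E f (l36) 0 0 (t39) 0 0 0 (l45) 0 0 0 0 0 0 0 0 0 (t60) 0 0 0 0 0 (t71)) := by
  obtain ⟨it39, it44, it46, it47, it51, it53, it60, it63, it65, it69, it70, it71⟩ := inv_of_mem d hm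
  have h2 : (2 : K) = 0 := CharTwo.two_eq_zero
  have h3 : (l36) * f l45 + l45 * f (l36) = 0 := by
    have h := hs
    unfold E at h
    rw [W_mul, ← W_zero] at h
    obtain ⟨-, -, -, -, -, -, -, -, -, -, -, -, -, -, -, -, -, -, -, -, -, -, -, -, h60, -, -, -, -, -, -, -, -, -, -, -⟩ := W_inj h
    try simp only [map_zero] at h60
    linear_combination (-t60 - l45*(f l36)) * h2 + h60
  obtain ⟨w, hw, rfl⟩ := solve_sq hp36 d.hff h3
  have c : Cj f (E f (l36) 0 0 (t39) 0 0 0 ((l36) * w) 0 0 0 0 0 0 0 0 0 (t60) 0 0 0 0 0 (t71)) (E f (l36) 0 0 (t39) 0 0 0 0 0 0 0 0 0 0 0 0 0 (t60 + l36*w*(f l36)) 0 0 0 0 0 (t71)) := cjS f (E_mem_G1 d (map_zero f) hw (map_zero f) (map_zero f) (map_zero f) (map_zero f) (map_zero f) (map_zero f) (map_zero f) (map_zero f) (map_zero f) (map_zero f) 0 0 0 0 0 0 0 0 0 0 0 0) (st_F1_1_2_1_1_1_1 d.hff it39 it60 it71 hw)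
  exact Res.of_cj f c (F1_1_2_1_1_1_1_1 d hp71 hp36 (c.mem f hm) (c.sq f hs))

theorem F1_1_2_1_1_1 {l36 l45 t39 t44 t60 t71 : K} (d : Dt f) (hp71 : t71 ≠ 0) (hp36 : l36 ≠ 0) (hm : E f (l36) 0 0 (t39) 0 0 (t44) (l45) 0 0 0 0 0 0 0 0 0 (t60) 0 0 0 0 0 (t71) ∈ (sc f).G1) (hs : E f (l36) 0 0 (t39) 0 0 (t44) (l45) 0 0 0 0 0 0 0 0 0 (t60) 0 0 0 0 0 (t71) * E f (l36) 0 0 (t39) 0 0 (t44) (l45) 0 0 0 0 0 0 0 0 0 (t60) 0 0 0 0 0 (t71) = 1) : Res f (E f (l36) 0 0 (t39) 0 0 (t44) (l45) 0 0 0 0 0 0 0 0 0 (t60) 0 0 0 0 0 (t71)) := by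
  have h2 : (2 : K) = 0 := CharTwo.two_eq_zero
  have hz : t44 = 0 := by
    have h := hs
    unfold E at h
    rw [W_mul, ← W_zero] at h
    obtain ⟨-, -, -, -, -, -, -, -, -, h45, -, -, -, -, -, -, -, -, -, -, -, -, -, -, -, -, -, -, -, -, -, -, -, -, -, -⟩ := W_inj h
    try simp only [map_zero] at h45
    have key : l36*t44 = 0 := by linear_combination (-l45) * h2 + h45
    simpa [mul_eq_zero, map_eq_zero, pow_eq_zero_iff, hp71, hp36] using key
  subst hz
  exact F1_1_2_1_1_1_1 d hp71 hp36 hm hs

theorem F1_1_2_1_1 {l36 l40 l45 t39 t44 t60 t71 : K} (d : Dt f) (hp71 : t71 ≠ 0) (hp36 : l36 ≠ 0) (hm : E f (l36) 0 0 (t39) (l40) 0 (t44) (l45) 0 0 0 0 0 0 0 0 0 (t60) 0 0 0 0 0 (t71) ∈ (sc f).G1) (hs : E f (l36) 0 0 (t39) (l40) 0 (t44) (l45) 0 0 0 0 0 0 0 0 0 (t60) 0 0 0 0 0 (t71) * E f (l36) 0 0 (t39) (l40) 0 (t44) (l45) 0 0 0 0 0 0 0 0 0 (t60) 0 0 0 0 0 (t71) = 1) : Res f (E f (l36) 0 0 (t39) (l40) 0 (t44) (l45) 0 0 0 0 0 0 0 0 0 (t60) 0 0 0 0 0 (t71)) := by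
  have h2 : (2 : K) = 0 := CharTwo.two_eq_zero
  have hz : l40 = 0 := by
    have h := hs
    unfold E at h
    rw [W_mul, ← W_zero] at h
    obtain ⟨-, -, -, -, -, h41, -, -, -, -, -, -, -, -, -, -, -, -, -, -, -, -, -, -, -, -, -, -, -, -, -, -, -, -, -, -⟩ := W_inj h
    try simp only [map_zero] at h41
    have key : l36*l40 = 0 := by linear_combination h41
    simpa [mul_eq_zero, map_eq_zero, pow_eq_zero_iff, hp71, hp36] using key
  subst hz
  exact F1_1_2_1_1_1 d hp71 hp36 hm hs

theorem F1_1_2_1 {l36 l40 l41 l45 t39 t44 t60 t71 : K} (d : Dt f) (hp71 : t71 ≠ 0) (hp36 : l36 ≠ 0) (hm : E f (l36) 0 0 (t39) (l40) (l41) (t44) (l45) 0 0 0 0 0 0 0 0 0 (t60) 0 0 0 0 0 (t71) ∈ (sc f).G1) (hs : E f (l36) 0 0 (t39) (l40) (l41) (t44) (l45) 0 0 0 0 0 0 0 0 0 (t60) 0 0 0 0 0 (t71) * E f (l36) 0 0 (t39) (l40) (l41) (t44) (l45) 0 0 0 0 0 0 0 0 0 (t60) 0 0 0 0 0 (t71) = 1) : Res f (E f (l36) 0 0 (t39) (l40) (l41) (t44) (l45) 0 0 0 0 0 0 0 0 0 (t60) 0 0 0 0 0 (t71)) := by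
  obtain ⟨it39, it44, it46, it47, it51, it53, it60, it63, it65, it69, it70, it71⟩ := inv_of_mem d hm
  obtain ⟨y, rfl⟩ := solve_mul hp36 l41
  have c : Cj f (E f (l36) 0 0 (t39) (l40) ((l36) * y) (t44) (l45) 0 0 0 0 0 0 0 0 0 (t60) 0 0 0 0 0 (t71)) (E f (l36) 0 0 (t39) (l40) 0 (t44) (l45) 0 0 0 0 0 0 0 0 0 (t60) 0 0 0 0 0 (t71)) := cjS f (E_mem_G1 d (map_zero f) (map_zero f) (map_zero f) (map_zero f) (map_zero f) (map_zero f) (map_zero f) (map_zero f) (map_zero f) (map_zero f) (map_zero f) (map_zero f) 0 0 0 (y) 0 0 0 0 0 0 0 0) (st_F1_1_2_1 d.hff it39 it44 it60 it71)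
  exact Res.of_cj f c (F1_1_2_1_1 d hp71 hp36 (c.mem f hm) (c.sq f hs))

theorem F1_1_2 {l36 l38 l40 l41 l45 t39 t44 t60 t71 : K} (d : Dt f) (hp71 : t71 ≠ 0) (hp36 : l36 ≠ 0) (hm : E f (l36) 0 (l38) (t39) (l40) (l41) (t44) (l45) 0 0 0 0 0 0 0 0 0 (t60) 0 0 0 0 0 (t71) ∈ (sc f).G1) (hs : E f (l36) 0 (l38) (t39) (l40) (l41) (t44) (l45) 0 0 0 0 0 0 0 0 0 (t60) 0 0 0 0 0 (t71) * E f (l36) 0 (l38) (t39) (l40) (l41) (t44) (l45) 0 0 0 0 0 0 0 0 0 (t60) 0 0 0 0 0 (t71) = 1) : Res f (E f (l36) 0 (l38) (t39) (l40) (l41) (t44) (l45) 0 0 0 0 0 0 0 0 0 (t60) 0 0 0 0 0 (t71)) := by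
  obtain ⟨it39, it44, it46, it47, it51, it53, it60, it63, it65, it69, it70, it71⟩ := inv_of_mem d hm
  obtain ⟨y, rfl⟩ := solve_mul hp36 l38
  have c : Cj f (E f (l36) 0 ((l36) * y) (t39) (l40) (l41) (t44) (l45) 0 0 0 0 0 0 0 0 0 (t60) 0 0 0 0 0 (t71)) (E f (l36) 0 0 (t39) (l40 + t39*y) (l41) (t44 + l40*(f y) + y*(f l40) + t39*y*(f y)) (l45 + l41*(f y)) 0 0 0 0 0 0 0 0 0 (t60) 0 0 0 0 0 (t71)) := cjS f (E_mem_G1 d (map_zero f) (map_zero f) (map_zero f) (map_zero f) (map_zero f) (map_zero f) (map_zero f) (map_zero f) (map_zero f) (map_zero f) (map_zero f) (map_zero f) 0 (y) 0 0 0 0 0 0 0 0 0 0) (st_F1_1_2 d.hff it39 it44 it60 it71)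
  exact Res.of_cj f c (F1_1_2_1 d hp71 hp36 (c.mem f hm) (c.sq f hs))

theorem F1_1_1_2_1 {l36 l40 l41 l45 t39 t44 t60 t71 : K} (d : Dt f) (hp71 : t71 ≠ 0) (hp36 : l36 ≠ 0) (hm : E f (l36) 0 0 (t39) (l40) (l41) (t44) (l45) 0 0 0 0 0 0 0 0 0 (t60) 0 0 0 0 0 (t71) ∈ (sc f).G1) (hs : E f (l36) 0 0 (t39) (l40) (l41) (t44) (l45) 0 0 0 0 0 0 0 0 0 (t60) 0 0 0 0 0 (t71) * E f (l36) 0 0 (t39) (l40) (l41) (t44) (l45) 0 0 0 0 0 0 0 0 0 (t60) 0 0 0 0 0 (t71) = 1) : Res f (E f (l36) 0 0 (t39) (l40) (l41) (t44) (l45) 0 0 0 0 0 0 0 0 0 (t60) 0 0 0 0 0 (t71)) := by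
  exact F1_1_2 d hp71 hp36 hm hs

theorem F1_1_1_2 {l38 l40 l41 l45 t39 t44 t60 t71 : K} (d : Dt f) (hp71 : t71 ≠ 0) (hp38 : l38 ≠ 0) (hm : E f 0 0 (l38) (t39) (l40) (l41) (t44) (l45) 0 0 0 0 0 0 0 0 0 (t60) 0 0 0 0 0 (t71) ∈ (sc f).G1) (hs : E f 0 0 (l38) (t39) (l40) (l41) (t44) (l45) 0 0 0 0 0 0 0 0 0 (t60) 0 0 0 0 0 (t71) * E f 0 0 (l38) (t39) (l40) (l41) (t44) (l45) 0 0 0 0 0 0 0 0 0 (t60) 0 0 0 0 0 (t71) = 1) : Res f (E f 0 0 (l38) (t39) (l40) (l41) (t44) (l45) 0 0 0 0 0 0 0 0 0 (t60) 0 0 0 0 0 (t71)) := by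
  obtain ⟨it39, it44, it46, it47, it51, it53, it60, it63, it65, it69, it70, it71⟩ := inv_of_mem d hm
  have c : Cj f (E f 0 0 (l38) (t39) (l40) (l41) (t44) (l45) 0 0 0 0 0 0 0 0 0 (t60) 0 0 0 0 0 (t71)) (E f (l38) 0 0 (t44) ((f l40)) (l45) (t39) (l41) 0 0 0 0 0 0 0 0 0 (t60) 0 0 0 0 0 (t71)) := cjN f (nR_mem f [2]) (nE_F1_1_1_2 d.hff it39 it44 it60 it71)
  exact Res.of_cj f c (F1_1_1_2_1 d hp71 hp38 (c.mem f hm) (c.sq f hs))

theorem F1_1_1 {l38 l40 l41 l45 t39 t44 t60 t71 : K} (d : Dt f) (hp71 : t71 ≠ 0) (hm : E f 0 0 (l38) (t39) (l40) (l41) (t44) (l45) 0 0 0 0 0 0 0 0 0 (t60) 0 0 0 0 0 (t71) ∈ (sc f).G1) (hs : E f 0 0 (l38) (t39) (l40) (l41) (t44) (l45) 0 0 0 0 0 0 0 0 0 (t60) 0 0 0 0 0 (t71) * E f 0 0 (l38) (t39) (l40) (l41) (t44) (l45) 0 0 0 0 0 0 0 0 0 (t60) 0 0 0 0 0 (t71) = 1) : Res f (E f 0 0 (l38) (t39) (l40) (l41) (t44) (l45) 0 0 0 0 0 0 0 0 0 (t60) 0 0 0 0 0 (t71)) := by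
  by_cases hz : l38 = 0
  · subst hz
    exact F1_1_1_1 d hp71 hm hs
  · exact F1_1_1_2 d hp71 hz hm hs

theorem F1_1 {l36 l38 l40 l41 l45 t39 t44 t60 t71 : K} (d : Dt f) (hp71 : t71 ≠ 0) (hm : E f (l36) 0 (l38) (t39) (l40) (l41) (t44) (l45) 0 0 0 0 0 0 0 0 0 (t60) 0 0 0 0 0 (t71) ∈ (sc f).G1) (hs : E f (l36) 0 (l38) (t39) (l40) (l41) (t44) (l45) 0 0 0 0 0 0 0 0 0 (t60) 0 0 0 0 0 (t71) * E f (l36) 0 (l38) (t39) (l40) (l41) (t44) (l45) 0 0 0 0 0 0 0 0 0 (t60) 0 0 0 0 0 (t71) = 1) : Res f (E f (l36) 0 (l38) (t39) (l40) (l41) (t44) (l45) 0 0 0 0 0 0 0 0 0 (t60) 0 0 0 0 0 (t71)) := by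
  by_cases hz : l36 = 0
  · subst hz
    exact F1_1_1 d hp71 hm hs
  · exact F1_1_2 d hp71 hz hm hs

theorem st_F1_2_1_1 {l37 l40 l41 l45 t44 t60 t71 y : K} (hff : ∀ t, f (f t) = t) (it44 : f t44 = t44) (it60 : f t60 = t60) (it71 : f t71 = t71) :
    E f (y) 0 0 0 0 0 0 0 0 0 0 0 0 0 0 0 0 0 0 0 0 0 0 0 * E f 0 (l37) ((l37) * y) 0 (l40) (l41) (t44) (l45) 0 0 0 0 0 0 0 0 0 (t60) 0 0 0 0 0 (t71) = E f 0 (l37) 0 0 (l40) (l41 + l40*y) (t44) (l45 + t44*y) 0 0 0 0 0 0 0 0 0 (t60 + l45*(f y) + y*(f l45) + t44*y*(f y)) 0 0 0 0 0 (t71) * E f (y) 0 0 0 0 0 0 0 0 0 0 0 0 0 0 0 0 0 0 0 0 0 0 0 := by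
  have h2 : (2 : K) = 0 := CharTwo.two_eq_zero
  unfold E
  rw [W_mul, W_mul]
  apply W_congr
  · (try simp only [map_add, map_mul, map_pow, map_zero, map_one, hff, it44, it60, it71]) <;> linear_combination (0 : K) * h2
  · (try simp only [map_add, map_mul, map_pow, map_zero, map_one, hff, it44, it60, it71]) <;> linear_combination (0 : K) * h2
  · (try simp only [map_add, map_mul, map_pow, map_zero, map_one, hff, it44, it60, it71]) <;> linear_combination (0 : K) * h2
  · (try simp only [map_add, map_mul, map_pow, map_zero, map_one, hff, it44, it60, it71]) <;> linear_combination (0 : K) * h2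
  · (try simp only [map_add, map_mul, map_pow, map_zero, map_one, hff, it44, it60, it71]) <;> linear_combination (0 : K) * h2
  · (try simp only [map_add, map_mul, map_pow, map_zero, map_one, hff, it44, it60, it71]) <;> linear_combination (-l40*y) * h2
  · (try simp only [map_add, map_mul, map_pow, map_zero, map_one, hff, it44, it60, it71]) <;> linear_combination (0 : K) * h2
  · (try simp only [map_add, map_mul, map_pow, map_zero, map_one, hff, it44, it60, it71]) <;> linear_combination (0 : K) * h2
  · (try simp only [map_add, map_mul, map_pow, map_zero, map_one, hff, it44, it60, it71]) <;> linear_combination (0 : K) * h2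
  · (try simp only [map_add, map_mul, map_pow, map_zero, map_one, hff, it44, it60, it71]) <;> linear_combination (-t44*y - l40*y*(f l37)) * h2
  · (try simp only [map_add, map_mul, map_pow, map_zero, map_one, hff, it44, it60, it71]) <;> linear_combination (0 : K) * h2
  · (try simp only [map_add, map_mul, map_pow, map_zero, map_one, hff, it44, it60, it71]) <;> linear_combination (0 : K) * h2
  · (try simp only [map_add, map_mul, map_pow, map_zero, map_one, hff, it44, it60, it71]) <;> linear_combination (0 : K) * h2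
  · (try simp only [map_add, map_mul, map_pow, map_zero, map_one, hff, it44, it60, it71]) <;> linear_combination (0 : K) * h2
  · (try simp only [map_add, map_mul, map_pow, map_zero, map_one, hff, it44, it60, it71]) <;> linear_combination (0 : K) * h2
  · (try simp only [map_add, map_mul, map_pow, map_zero, map_one, hff, it44, it60, it71]) <;> linear_combination (0 : K) * h2
  · (try simp only [map_add, map_mul, map_pow, map_zero, map_one, hff, it44, it60, it71]) <;> linear_combination (0 : K) * h2
  · (try simp only [map_add, map_mul, map_pow, map_zero, map_one, hff, it44, it60, it71]) <;> linear_combination (0 : K) * h2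
  · (try simp only [map_add, map_mul, map_pow, map_zero, map_one, hff, it44, it60, it71]) <;> linear_combination (0 : K) * h2
  · (try simp only [map_add, map_mul, map_pow, map_zero, map_one, hff, it44, it60, it71]) <;> linear_combination (0 : K) * h2
  · (try simp only [map_add, map_mul, map_pow, map_zero, map_one, hff, it44, it60, it71]) <;> linear_combination (0 : K) * h2
  · (try simp only [map_add, map_mul, map_pow, map_zero, map_one, hff, it44, it60, it71]) <;> linear_combination ((f l37)*(f y)) * h2
  · (try simp only [map_add, map_mul, map_pow, map_zero, map_one, hff, it44, it60, it71]) <;> linear_combination (0 : K) * h2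
  · (try simp only [map_add, map_mul, map_pow, map_zero, map_one, hff, it44, it60, it71]) <;> linear_combination (l40*(f l37)*(f y)) * h2
  · (try simp only [map_add, map_mul, map_pow, map_zero, map_one, hff, it44, it60, it71]) <;> linear_combination (-y*(f l45) + l41*(f l37)*(f y) - t44*y*(f y)) * h2
  · (try simp only [map_add, map_mul, map_pow, map_zero, map_one, hff, it44, it60, it71]) <;> linear_combination (0 : K) * h2
  · (try simp only [map_add, map_mul, map_pow, map_zero, map_one, hff, it44, it60, it71]) <;> linear_combination (0 : K) * h2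
  · (try simp only [map_add, map_mul, map_pow, map_zero, map_one, hff, it44, it60, it71]) <;> linear_combination (0 : K) * h2
  · (try simp only [map_add, map_mul, map_pow, map_zero, map_one, hff, it44, it60, it71]) <;> linear_combination (0 : K) * h2
  · (try simp only [map_add, map_mul, map_pow, map_zero, map_one, hff, it44, it60, it71]) <;> linear_combination (0 : K) * h2
  · (try simp only [map_add, map_mul, map_pow, map_zero, map_one, hff, it44, it60, it71]) <;> linear_combination (0 : K) * h2
  · (try simp only [map_add, map_mul, map_pow, map_zero, map_one, hff, it44, it60, it71]) <;> linear_combination (0 : K) * h2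
  · (try simp only [map_add, map_mul, map_pow, map_zero, map_one, hff, it44, it60, it71]) <;> linear_combination (0 : K) * h2
  · (try simp only [map_add, map_mul, map_pow, map_zero, map_one, hff, it44, it60, it71]) <;> linear_combination (0 : K) * h2
  · (try simp only [map_add, map_mul, map_pow, map_zero, map_one, hff, it44, it60, it71]) <;> linear_combination (0 : K) * h2
  · (try simp only [map_add, map_mul, map_pow, map_zero, map_one, hff, it44, it60, it71]) <;> linear_combination (0 : K) * h2

theorem st_F1_2_1_1_1 {l37 l41 l45 t44 t60 t71 w : K} (hff : ∀ t, f (f t) = t) (it44 : f t44 = t44) (it60 : f t60 = t60) (it71 : f t71 = t71) (iw : f w = w) :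
    E f 0 0 0 (w) 0 0 0 0 0 0 0 0 0 0 0 0 0 0 0 0 0 0 0 0 * E f 0 (l37) 0 0 ((l37) * w) (l41) (t44) (l45) 0 0 0 0 0 0 0 0 0 (t60) 0 0 0 0 0 (t71) = E f 0 (l37) 0 0 0 (l41) (t44 + l37*w*(f l37)) (l45) 0 0 0 0 0 0 0 0 0 (t60) 0 0 0 0 0 (t71) * E f 0 0 0 (w) 0 0 0 0 0 0 0 0 0 0 0 0 0 0 0 0 0 0 0 0 := by
  have h2 : (2 : K) = 0 := CharTwo.two_eq_zero
  unfold E
  rw [W_mul, W_mul]
  apply W_congr
  · (try simp only [map_add, map_mul, map_pow, map_zero, map_one, hff, it44, it60, it71, iw]) <;> linear_combination (0 : K) * h2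
  · (try simp only [map_add, map_mul, map_pow, map_zero, map_one, hff, it44, it60, it71, iw]) <;> linear_combination (0 : K) * h2
  · (try simp only [map_add, map_mul, map_pow, map_zero, map_one, hff, it44, it60, it71, iw]) <;> linear_combination (0 : K) * h2
  · (try simp only [map_add, map_mul, map_pow, map_zero, map_one, hff, it44, it60, it71, iw]) <;> linear_combination (0 : K) * h2
  · (try simp only [map_add, map_mul, map_pow, map_zero, map_one, hff, it44, it60, it71, iw]) <;> linear_combination (l37*w) * h2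
  · (try simp only [map_add, map_mul, map_pow, map_zero, map_one, hff, it44, it60, it71, iw]) <;> linear_combination (0 : K) * h2
  · (try simp only [map_add, map_mul, map_pow, map_zero, map_one, hff, it44, it60, it71, iw]) <;> linear_combination (0 : K) * h2
  · (try simp only [map_add, map_mul, map_pow, map_zero, map_one, hff, it44, it60, it71, iw]) <;> linear_combination (0 : K) * h2
  · (try simp only [map_add, map_mul, map_pow, map_zero, map_one, hff, it44, it60, it71, iw]) <;> linear_combination (0 : K) * h2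
  · (try simp only [map_add, map_mul, map_pow, map_zero, map_one, hff, it44, it60, it71, iw]) <;> linear_combination (0 : K) * h2
  · (try simp only [map_add, map_mul, map_pow, map_zero, map_one, hff, it44, it60, it71, iw]) <;> linear_combination (0 : K) * h2
  · (try simp only [map_add, map_mul, map_pow, map_zero, map_one, hff, it44, it60, it71, iw]) <;> linear_combination (0 : K) * h2
  · (try simp only [map_add, map_mul, map_pow, map_zero, map_one, hff, it44, it60, it71, iw]) <;> linear_combination (0 : K) * h2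
  · (try simp only [map_add, map_mul, map_pow, map_zero, map_one, hff, it44, it60, it71, iw]) <;> linear_combination (0 : K) * h2
  · (try simp only [map_add, map_mul, map_pow, map_zero, map_one, hff, it44, it60, it71, iw]) <;> linear_combination (0 : K) * h2
  · (try simp only [map_add, map_mul, map_pow, map_zero, map_one, hff, it44, it60, it71, iw]) <;> linear_combination (0 : K) * h2
  · (try simp only [map_add, map_mul, map_pow, map_zero, map_one, hff, it44, it60, it71, iw]) <;> linear_combination (0 : K) * h2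
  · (try simp only [map_add, map_mul, map_pow, map_zero, map_one, hff, it44, it60, it71, iw]) <;> linear_combination (0 : K) * h2
  · (try simp only [map_add, map_mul, map_pow, map_zero, map_one, hff, it44, it60, it71, iw]) <;> linear_combination (0 : K) * h2
  · (try simp only [map_add, map_mul, map_pow, map_zero, map_one, hff, it44, it60, it71, iw]) <;> linear_combination (0 : K) * h2
  · (try simp only [map_add, map_mul, map_pow, map_zero, map_one, hff, it44, it60, it71, iw]) <;> linear_combination (0 : K) * h2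
  · (try simp only [map_add, map_mul, map_pow, map_zero, map_one, hff, it44, it60, it71, iw]) <;> linear_combination (0 : K) * h2
  · (try simp only [map_add, map_mul, map_pow, map_zero, map_one, hff, it44, it60, it71, iw]) <;> linear_combination (0 : K) * h2
  · (try simp only [map_add, map_mul, map_pow, map_zero, map_one, hff, it44, it60, it71, iw]) <;> linear_combination (0 : K) * h2
  · (try simp only [map_add, map_mul, map_pow, map_zero, map_one, hff, it44, it60, it71, iw]) <;> linear_combination (0 : K) * h2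
  · (try simp only [map_add, map_mul, map_pow, map_zero, map_one, hff, it44, it60, it71, iw]) <;> linear_combination (0 : K) * h2
  · (try simp only [map_add, map_mul, map_pow, map_zero, map_one, hff, it44, it60, it71, iw]) <;> linear_combination (0 : K) * h2
  · (try simp only [map_add, map_mul, map_pow, map_zero, map_one, hff, it44, it60, it71, iw]) <;> linear_combination (0 : K) * h2
  · (try simp only [map_add, map_mul, map_pow, map_zero, map_one, hff, it44, it60, it71, iw]) <;> linear_combination (0 : K) * h2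
  · (try simp only [map_add, map_mul, map_pow, map_zero, map_one, hff, it44, it60, it71, iw]) <;> linear_combination (0 : K) * h2
  · (try simp only [map_add, map_mul, map_pow, map_zero, map_one, hff, it44, it60, it71, iw]) <;> linear_combination (0 : K) * h2
  · (try simp only [map_add, map_mul, map_pow, map_zero, map_one, hff, it44, it60, it71, iw]) <;> linear_combination (0 : K) * h2
  · (try simp only [map_add, map_mul, map_pow, map_zero, map_one, hff, it44, it60, it71, iw]) <;> linear_combination (0 : K) * h2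
  · (try simp only [map_add, map_mul, map_pow, map_zero, map_one, hff, it44, it60, it71, iw]) <;> linear_combination (0 : K) * h2
  · (try simp only [map_add, map_mul, map_pow, map_zero, map_one, hff, it44, it60, it71, iw]) <;> linear_combination (0 : K) * h2
  · (try simp only [map_add, map_mul, map_pow, map_zero, map_one, hff, it44, it60, it71, iw]) <;> linear_combination (0 : K) * h2

theorem st_F1_2_1_1_1_1 {l37 l41 l45 t60 t71 y : K} (hff : ∀ t, f (f t) = t) (it60 : f t60 = t60) (it71 : f t71 = t71) :
    E f 0 0 0 0 (y) 0 0 0 0 0 0 0 0 0 0 0 0 0 0 0 0 0 0 0 * E f 0 (l37) 0 0 0 (l41) ((l37) * f y + f (l37) * y) (l45) 0 0 0 0 0 0 0 0 0 (t60) 0 0 0 0 0 (t71) = E f 0 (l37) 0 0 0 (l41) 0 (l45) 0 0 0 0 0 0 0 0 0 (t60) 0 0 0 0 0 (t71) * E f 0 0 0 0 (y) 0 0 0 0 0 0 0 0 0 0 0 0 0 0 0 0 0 0 0 := by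
  have h2 : (2 : K) = 0 := CharTwo.two_eq_zero
  unfold E
  rw [W_mul, W_mul]
  apply W_congr
  · (try simp only [map_add, map_mul, map_pow, map_zero, map_one, hff, it60, it71]) <;> linear_combination (0 : K) * h2
  · (try simp only [map_add, map_mul, map_pow, map_zero, map_one, hff, it60, it71]) <;> linear_combination (0 : K) * h2
  · (try simp only [map_add, map_mul, map_pow, map_zero, map_one, hff, it60, it71]) <;> linear_combination (0 : K) * h2
  · (try simp only [map_add, map_mul, map_pow, map_zero, map_one, hff, it60, it71]) <;> linear_combination (0 : K) * h2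
  · (try simp only [map_add, map_mul, map_pow, map_zero, map_one, hff, it60, it71]) <;> linear_combination (0 : K) * h2
  · (try simp only [map_add, map_mul, map_pow, map_zero, map_one, hff, it60, it71]) <;> linear_combination (0 : K) * h2
  · (try simp only [map_add, map_mul, map_pow, map_zero, map_one, hff, it60, it71]) <;> linear_combination (0 : K) * h2
  · (try simp only [map_add, map_mul, map_pow, map_zero, map_one, hff, it60, it71]) <;> linear_combination (0 : K) * h2
  · (try simp only [map_add, map_mul, map_pow, map_zero, map_one, hff, it60, it71]) <;> linear_combination (l37*(f y)) * h2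
  · (try simp only [map_add, map_mul, map_pow, map_zero, map_one, hff, it60, it71]) <;> linear_combination (0 : K) * h2
  · (try simp only [map_add, map_mul, map_pow, map_zero, map_one, hff, it60, it71]) <;> linear_combination (0 : K) * h2
  · (try simp only [map_add, map_mul, map_pow, map_zero, map_one, hff, it60, it71]) <;> linear_combination (0 : K) * h2
  · (try simp only [map_add, map_mul, map_pow, map_zero, map_one, hff, it60, it71]) <;> linear_combination (0 : K) * h2
  · (try simp only [map_add, map_mul, map_pow, map_zero, map_one, hff, it60, it71]) <;> linear_combination (0 : K) * h2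
  · (try simp only [map_add, map_mul, map_pow, map_zero, map_one, hff, it60, it71]) <;> linear_combination (0 : K) * h2
  · (try simp only [map_add, map_mul, map_pow, map_zero, map_one, hff, it60, it71]) <;> linear_combination (0 : K) * h2
  · (try simp only [map_add, map_mul, map_pow, map_zero, map_one, hff, it60, it71]) <;> linear_combination (0 : K) * h2
  · (try simp only [map_add, map_mul, map_pow, map_zero, map_one, hff, it60, it71]) <;> linear_combination (0 : K) * h2
  · (try simp only [map_add, map_mul, map_pow, map_zero, map_one, hff, it60, it71]) <;> linear_combination (0 : K) * h2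
  · (try simp only [map_add, map_mul, map_pow, map_zero, map_one, hff, it60, it71]) <;> linear_combination (0 : K) * h2
  · (try simp only [map_add, map_mul, map_pow, map_zero, map_one, hff, it60, it71]) <;> linear_combination (0 : K) * h2
  · (try simp only [map_add, map_mul, map_pow, map_zero, map_one, hff, it60, it71]) <;> linear_combination (0 : K) * h2
  · (try simp only [map_add, map_mul, map_pow, map_zero, map_one, hff, it60, it71]) <;> linear_combination (0 : K) * h2
  · (try simp only [map_add, map_mul, map_pow, map_zero, map_one, hff, it60, it71]) <;> linear_combination (0 : K) * h2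
  · (try simp only [map_add, map_mul, map_pow, map_zero, map_one, hff, it60, it71]) <;> linear_combination (0 : K) * h2
  · (try simp only [map_add, map_mul, map_pow, map_zero, map_one, hff, it60, it71]) <;> linear_combination (0 : K) * h2
  · (try simp only [map_add, map_mul, map_pow, map_zero, map_one, hff, it60, it71]) <;> linear_combination (0 : K) * h2
  · (try simp only [map_add, map_mul, map_pow, map_zero, map_one, hff, it60, it71]) <;> linear_combination (0 : K) * h2
  · (try simp only [map_add, map_mul, map_pow, map_zero, map_one, hff, it60, it71]) <;> linear_combination (0 : K) * h2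
  · (try simp only [map_add, map_mul, map_pow, map_zero, map_one, hff, it60, it71]) <;> linear_combination (0 : K) * h2
  · (try simp only [map_add, map_mul, map_pow, map_zero, map_one, hff, it60, it71]) <;> linear_combination (0 : K) * h2
  · (try simp only [map_add, map_mul, map_pow, map_zero, map_one, hff, it60, it71]) <;> linear_combination (0 : K) * h2
  · (try simp only [map_add, map_mul, map_pow, map_zero, map_one, hff, it60, it71]) <;> linear_combination (0 : K) * h2
  · (try simp only [map_add, map_mul, map_pow, map_zero, map_one, hff, it60, it71]) <;> linear_combination (0 : K) * h2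
  · (try simp only [map_add, map_mul, map_pow, map_zero, map_one, hff, it60, it71]) <;> linear_combination (0 : K) * h2
  · (try simp only [map_add, map_mul, map_pow, map_zero, map_one, hff, it60, it71]) <;> linear_combination (0 : K) * h2

theorem st_F1_2_1_1_1_1_1 {l37 l41 t60 t71 y : K} (hff : ∀ t, f (f t) = t) (it60 : f t60 = t60) (it71 : f t71 = t71) :
    E f 0 0 0 0 0 (y) 0 0 0 0 0 0 0 0 0 0 0 0 0 0 0 0 0 0 * E f 0 (l37) 0 0 0 (l41) 0 (((f l37)) * y) 0 0 0 0 0 0 0 0 0 (t60) 0 0 0 0 0 (t71) = E f 0 (l37) 0 0 0 (l41) 0 0 0 0 0 0 0 0 0 0 0 (t60) 0 0 0 0 0 (t71) * E f 0 0 0 0 0 (y) 0 0 0 0 0 0 0 0 0 0 0 0 0 0 0 0 0 0 := by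
  have h2 : (2 : K) = 0 := CharTwo.two_eq_zero
  unfold E
  rw [W_mul, W_mul]
  apply W_congr
  · (try simp only [map_add, map_mul, map_pow, map_zero, map_one, hff, it60, it71]) <;> linear_combination (0 : K) * h2
  · (try simp only [map_add, map_mul, map_pow, map_zero, map_one, hff, it60, it71]) <;> linear_combination (0 : K) * h2
  · (try simp only [map_add, map_mul, map_pow, map_zero, map_one, hff, it60, it71]) <;> linear_combination (0 : K) * h2
  · (try simp only [map_add, map_mul, map_pow, map_zero, map_one, hff, it60, it71]) <;> linear_combination (0 : K) * h2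
  · (try simp only [map_add, map_mul, map_pow, map_zero, map_one, hff, it60, it71]) <;> linear_combination (0 : K) * h2
  · (try simp only [map_add, map_mul, map_pow, map_zero, map_one, hff, it60, it71]) <;> linear_combination (0 : K) * h2
  · (try simp only [map_add, map_mul, map_pow, map_zero, map_one, hff, it60, it71]) <;> linear_combination (0 : K) * h2
  · (try simp only [map_add, map_mul, map_pow, map_zero, map_one, hff, it60, it71]) <;> linear_combination (0 : K) * h2
  · (try simp only [map_add, map_mul, map_pow, map_zero, map_one, hff, it60, it71]) <;> linear_combination (0 : K) * h2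
  · (try simp only [map_add, map_mul, map_pow, map_zero, map_one, hff, it60, it71]) <;> linear_combination (0 : K) * h2
  · (try simp only [map_add, map_mul, map_pow, map_zero, map_one, hff, it60, it71]) <;> linear_combination (0 : K) * h2
  · (try simp only [map_add, map_mul, map_pow, map_zero, map_one, hff, it60, it71]) <;> linear_combination (0 : K) * h2
  · (try simp only [map_add, map_mul, map_pow, map_zero, map_one, hff, it60, it71]) <;> linear_combination (0 : K) * h2
  · (try simp only [map_add, map_mul, map_pow, map_zero, map_one, hff, it60, it71]) <;> linear_combination (0 : K) * h2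
  · (try simp only [map_add, map_mul, map_pow, map_zero, map_one, hff, it60, it71]) <;> linear_combination (0 : K) * h2
  · (try simp only [map_add, map_mul, map_pow, map_zero, map_one, hff, it60, it71]) <;> linear_combination (0 : K) * h2
  · (try simp only [map_add, map_mul, map_pow, map_zero, map_one, hff, it60, it71]) <;> linear_combination (0 : K) * h2
  · (try simp only [map_add, map_mul, map_pow, map_zero, map_one, hff, it60, it71]) <;> linear_combination (0 : K) * h2
  · (try simp only [map_add, map_mul, map_pow, map_zero, map_one, hff, it60, it71]) <;> linear_combination (0 : K) * h2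
  · (try simp only [map_add, map_mul, map_pow, map_zero, map_one, hff, it60, it71]) <;> linear_combination (0 : K) * h2
  · (try simp only [map_add, map_mul, map_pow, map_zero, map_one, hff, it60, it71]) <;> linear_combination (0 : K) * h2
  · (try simp only [map_add, map_mul, map_pow, map_zero, map_one, hff, it60, it71]) <;> linear_combination (0 : K) * h2
  · (try simp only [map_add, map_mul, map_pow, map_zero, map_one, hff, it60, it71]) <;> linear_combination (0 : K) * h2
  · (try simp only [map_add, map_mul, map_pow, map_zero, map_one, hff, it60, it71]) <;> linear_combination (l37*(f y)) * h2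
  · (try simp only [map_add, map_mul, map_pow, map_zero, map_one, hff, it60, it71]) <;> linear_combination (0 : K) * h2
  · (try simp only [map_add, map_mul, map_pow, map_zero, map_one, hff, it60, it71]) <;> linear_combination (0 : K) * h2
  · (try simp only [map_add, map_mul, map_pow, map_zero, map_one, hff, it60, it71]) <;> linear_combination (0 : K) * h2
  · (try simp only [map_add, map_mul, map_pow, map_zero, map_one, hff, it60, it71]) <;> linear_combination (0 : K) * h2
  · (try simp only [map_add, map_mul, map_pow, map_zero, map_one, hff, it60, it71]) <;> linear_combination (0 : K) * h2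
  · (try simp only [map_add, map_mul, map_pow, map_zero, map_one, hff, it60, it71]) <;> linear_combination (0 : K) * h2
  · (try simp only [map_add, map_mul, map_pow, map_zero, map_one, hff, it60, it71]) <;> linear_combination (0 : K) * h2
  · (try simp only [map_add, map_mul, map_pow, map_zero, map_one, hff, it60, it71]) <;> linear_combination (0 : K) * h2
  · (try simp only [map_add, map_mul, map_pow, map_zero, map_one, hff, it60, it71]) <;> linear_combination (0 : K) * h2
  · (try simp only [map_add, map_mul, map_pow, map_zero, map_one, hff, it60, it71]) <;> linear_combination (0 : K) * h2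
  · (try simp only [map_add, map_mul, map_pow, map_zero, map_one, hff, it60, it71]) <;> linear_combination (0 : K) * h2
  · (try simp only [map_add, map_mul, map_pow, map_zero, map_one, hff, it60, it71]) <;> linear_combination (0 : K) * h2

theorem nE_F1_2_1_1_1_1_1_1_1 {l37 t60 t71 : K} (hff : ∀ t, f (f t) = t) (it60 : f t60 = t60) (it71 : f t71 = t71) :
    nR [1] * E f 0 (l37) 0 0 0 0 0 0 0 0 0 0 0 0 0 0 0 (t60) 0 0 0 0 0 (t71) * (nR [1])⁻¹ = E f 0 0 0 0 (l37) 0 0 0 0 0 0 0 0 0 0 0 0 (t60) 0 0 0 0 0 (t71) := by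
  have h2 : (2 : K) = 0 := CharTwo.two_eq_zero
  have c37 := fun t : K => nR_at (l := [1]) (s := 37) (m := 40) (by decide +kernel) t
  have c42 := fun t : K => nR_at (l := [1]) (s := 42) (m := 43) (by decide +kernel) t
  have c60 := fun t : K => nR_at (l := [1]) (s := 60) (m := 60) (by decide +kernel) t
  have c71 := fun t : K => nR_at (l := [1]) (s := 71) (m := 71) (by decide +kernel) t
  unfold E
  rw [conj_W]
  simp only [map_zero, zero_mul, mul_zero, add_zero, zero_add, conj_x0, one_mul, c37, c42, c60, c71]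
  rw [← W_zero (K := K)]
  simp only [xW_40, xW_43, xW_60, xW_71, zero_mul, mul_zero, add_zero, zero_add]
  first
    | done
    | apply W_congr
      · (try simp only [map_add, map_mul, map_pow, map_zero, map_one, hff, it60, it71]) <;> linear_combination (0 : K) * h2
      · (try simp only [map_add, map_mul, map_pow, map_zero, map_one, hff, it60, it71]) <;> linear_combination (0 : K) * h2
      · (try simp only [map_add, map_mul, map_pow, map_zero, map_one, hff, it60, it71]) <;> linear_combination (0 : K) * h2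
      · (try simp only [map_add, map_mul, map_pow, map_zero, map_one, hff, it60, it71]) <;> linear_combination (0 : K) * h2
      · (try simp only [map_add, map_mul, map_pow, map_zero, map_one, hff, it60, it71]) <;> linear_combination (0 : K) * h2
      · (try simp only [map_add, map_mul, map_pow, map_zero, map_one, hff, it60, it71]) <;> linear_combination (0 : K) * h2
      · (try simp only [map_add, map_mul, map_pow, map_zero, map_one, hff, it60, it71]) <;> linear_combination (0 : K) * h2
      · (try simp only [map_add, map_mul, map_pow, map_zero, map_one, hff, it60, it71]) <;> linear_combination (0 : K) * h2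
      · (try simp only [map_add, map_mul, map_pow, map_zero, map_one, hff, it60, it71]) <;> linear_combination (0 : K) * h2
      · (try simp only [map_add, map_mul, map_pow, map_zero, map_one, hff, it60, it71]) <;> linear_combination (0 : K) * h2
      · (try simp only [map_add, map_mul, map_pow, map_zero, map_one, hff, it60, it71]) <;> linear_combination (0 : K) * h2
      · (try simp only [map_add, map_mul, map_pow, map_zero, map_one, hff, it60, it71]) <;> linear_combination (0 : K) * h2
      · (try simp only [map_add, map_mul, map_pow, map_zero, map_one, hff, it60, it71]) <;> linear_combination (0 : K) * h2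
      · (try simp only [map_add, map_mul, map_pow, map_zero, map_one, hff, it60, it71]) <;> linear_combination (0 : K) * h2
      · (try simp only [map_add, map_mul, map_pow, map_zero, map_one, hff, it60, it71]) <;> linear_combination (0 : K) * h2
      · (try simp only [map_add, map_mul, map_pow, map_zero, map_one, hff, it60, it71]) <;> linear_combination (0 : K) * h2
      · (try simp only [map_add, map_mul, map_pow, map_zero, map_one, hff, it60, it71]) <;> linear_combination (0 : K) * h2
      · (try simp only [map_add, map_mul, map_pow, map_zero, map_one, hff, it60, it71]) <;> linear_combination (0 : K) * h2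
      · (try simp only [map_add, map_mul, map_pow, map_zero, map_one, hff, it60, it71]) <;> linear_combination (0 : K) * h2
      · (try simp only [map_add, map_mul, map_pow, map_zero, map_one, hff, it60, it71]) <;> linear_combination (0 : K) * h2
      · (try simp only [map_add, map_mul, map_pow, map_zero, map_one, hff, it60, it71]) <;> linear_combination (0 : K) * h2
      · (try simp only [map_add, map_mul, map_pow, map_zero, map_one, hff, it60, it71]) <;> linear_combination (0 : K) * h2
      · (try simp only [map_add, map_mul, map_pow, map_zero, map_one, hff, it60, it71]) <;> linear_combination (0 : K) * h2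
      · (try simp only [map_add, map_mul, map_pow, map_zero, map_one, hff, it60, it71]) <;> linear_combination (0 : K) * h2
      · (try simp only [map_add, map_mul, map_pow, map_zero, map_one, hff, it60, it71]) <;> linear_combination (0 : K) * h2
      · (try simp only [map_add, map_mul, map_pow, map_zero, map_one, hff, it60, it71]) <;> linear_combination (0 : K) * h2
      · (try simp only [map_add, map_mul, map_pow, map_zero, map_one, hff, it60, it71]) <;> linear_combination (0 : K) * h2
      · (try simp only [map_add, map_mul, map_pow, map_zero, map_one, hff, it60, it71]) <;> linear_combination (0 : K) * h2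
      · (try simp only [map_add, map_mul, map_pow, map_zero, map_one, hff, it60, it71]) <;> linear_combination (0 : K) * h2
      · (try simp only [map_add, map_mul, map_pow, map_zero, map_one, hff, it60, it71]) <;> linear_combination (0 : K) * h2
      · (try simp only [map_add, map_mul, map_pow, map_zero, map_one, hff, it60, it71]) <;> linear_combination (0 : K) * h2
      · (try simp only [map_add, map_mul, map_pow, map_zero, map_one, hff, it60, it71]) <;> linear_combination (0 : K) * h2
      · (try simp only [map_add, map_mul, map_pow, map_zero, map_one, hff, it60, it71]) <;> linear_combination (0 : K) * h2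
      · (try simp only [map_add, map_mul, map_pow, map_zero, map_one, hff, it60, it71]) <;> linear_combination (0 : K) * h2
      · (try simp only [map_add, map_mul, map_pow, map_zero, map_one, hff, it60, it71]) <;> linear_combination (0 : K) * h2
      · (try simp only [map_add, map_mul, map_pow, map_zero, map_one, hff, it60, it71]) <;> linear_combination (0 : K) * h2

theorem F1_2_1_1_1_1_1_1_1_1 {l40 t60 t71 : K} (d : Dt f) (hp71 : t71 ≠ 0) (hm : E f 0 0 0 0 (l40) 0 0 0 0 0 0 0 0 0 0 0 0 (t60) 0 0 0 0 0 (t71) ∈ (sc f).G1) (hs : E f 0 0 0 0 (l40) 0 0 0 0 0 0 0 0 0 0 0 0 (t60) 0 0 0 0 0 (t71) * E f 0 0 0 0 (l40) 0 0 0 0 0 0 0 0 0 0 0 0 (t60) 0 0 0 0 0 (t71) = 1) : Res f (E f 0 0 0 0 (l40) 0 0 0 0 0 0 0 0 0 0 0 0 (t60) 0 0 0 0 0 (t71)) := by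
  exact AC d hp71 hm hs

theorem F1_2_1_1_1_1_1_1_1 {l37 t60 t71 : K} (d : Dt f) (hp71 : t71 ≠ 0) (hp37 : l37 ≠ 0) (hm : E f 0 (l37) 0 0 0 0 0 0 0 0 0 0 0 0 0 0 0 (t60) 0 0 0 0 0 (t71) ∈ (sc f).G1) (hs : E f 0 (l37) 0 0 0 0 0 0 0 0 0 0 0 0 0 0 0 (t60) 0 0 0 0 0 (t71) * E f 0 (l37) 0 0 0 0 0 0 0 0 0 0 0 0 0 0 0 (t60) 0 0 0 0 0 (t71) = 1) : Res f (E f 0 (l37) 0 0 0 0 0 0 0 0 0 0 0 0 0 0 0 (t60) 0 0 0 0 0 (t71)) := by
  obtain ⟨it39, it44, it46, it47, it51, it53, it60, it63, it65, it69, it70, it71⟩ := inv_of_mem d hm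
  have c : Cj f (E f 0 (l37) 0 0 0 0 0 0 0 0 0 0 0 0 0 0 0 (t60) 0 0 0 0 0 (t71)) (E f 0 0 0 0 (l37) 0 0 0 0 0 0 0 0 0 0 0 0 (t60) 0 0 0 0 0 (t71)) := cjN f (nR_mem f [1]) (nE_F1_2_1_1_1_1_1_1_1 d.hff it60 it71)
  exact Res.of_cj f c (F1_2_1_1_1_1_1_1_1_1 d hp71 (c.mem f hm) (c.sq f hs))

theorem F1_2_1_1_1_1_1_1 {l37 l41 t60 t71 : K} (d : Dt f) (hp71 : t71 ≠ 0) (hp37 : l37 ≠ 0) (hm : E f 0 (l37) 0 0 0 (l41) 0 0 0 0 0 0 0 0 0 0 0 (t60) 0 0 0 0 0 (t71) ∈ (sc f).G1) (hs : E f 0 (l37) 0 0 0 (l41) 0 0 0 0 0 0 0 0 0 0 0 (t60) 0 0 0 0 0 (t71) * E f 0 (l37) 0 0 0 (l41) 0 0 0 0 0 0 0 0 0 0 0 (t60) 0 0 0 0 0 (t71) = 1) : Res f (E f 0 (l37) 0 0 0 (l41) 0 0 0 0 0 0 0 0 0 0 0 (t60) 0 0 0 0 0 (t71)) := by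
  have h2 : (2 : K) = 0 := CharTwo.two_eq_zero
  have hz : l41 = 0 := by
    have h := hs
    unfold E at h
    rw [W_mul, ← W_zero] at h
    obtain ⟨-, -, -, -, -, -, -, -, -, h45, -, -, -, -, -, -, -, -, -, -, -, -, -, -, -, -, -, -, -, -, -, -, -, -, -, -⟩ := W_inj h
    try simp only [map_zero] at h45
    have key : l41*(f l37) = 0 := by linear_combination (-l41*(f l37)) * h2 + h45
    simpa [mul_eq_zero, map_eq_zero, pow_eq_zero_iff, hp71, hp37] using key
  subst hz
  exact F1_2_1_1_1_1_1_1_1 d hp71 hp37 hm hs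

theorem F1_2_1_1_1_1_1 {l37 l41 l45 t60 t71 : K} (d : Dt f) (hp71 : t71 ≠ 0) (hp37 : l37 ≠ 0) (hm : E f 0 (l37) 0 0 0 (l41) 0 (l45) 0 0 0 0 0 0 0 0 0 (t60) 0 0 0 0 0 (t71) ∈ (sc f).G1) (hs : E f 0 (l37) 0 0 0 (l41) 0 (l45) 0 0 0 0 0 0 0 0 0 (t60) 0 0 0 0 0 (t71) * E f 0 (l37) 0 0 0 (l41) 0 (l45) 0 0 0 0 0 0 0 0 0 (t60) 0 0 0 0 0 (t71) = 1) : Res f (E f 0 (l37) 0 0 0 (l41) 0 (l45) 0 0 0 0 0 0 0 0 0 (t60) 0 0 0 0 0 (t71)) := by
  obtain ⟨it39, it44, it46, it47, it51, it53, it60, it63, it65, it69, it70, it71⟩ := inv_of_mem d hm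
  obtain ⟨y, rfl⟩ := solve_mul (fne (f := f) hp37) l45
  have c : Cj f (E f 0 (l37) 0 0 0 (l41) 0 (((f l37)) * y) 0 0 0 0 0 0 0 0 0 (t60) 0 0 0 0 0 (t71)) (E f 0 (l37) 0 0 0 (l41) 0 0 0 0 0 0 0 0 0 0 0 (t60) 0 0 0 0 0 (t71)) := cjS f (E_mem_G1 d (map_zero f) (map_zero f) (map_zero f) (map_zero f) (map_zero f) (map_zero f) (map_zero f) (map_zero f) (map_zero f) (map_zero f) (map_zero f) (map_zero f) 0 0 0 0 (y) 0 0 0 0 0 0 0) (st_F1_2_1_1_1_1_1 d.hff it60 it71)
  exact Res.of_cj f c (F1_2_1_1_1_1_1_1 d hp71 hp37 (c.mem f hm) (c.sq f hs))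

theorem F1_2_1_1_1_1 {l37 l41 l45 t44 t60 t71 : K} (d : Dt f) (hp71 : t71 ≠ 0) (hp37 : l37 ≠ 0) (hm : E f 0 (l37) 0 0 0 (l41) (t44) (l45) 0 0 0 0 0 0 0 0 0 (t60) 0 0 0 0 0 (t71) ∈ (sc f).G1) (hs : E f 0 (l37) 0 0 0 (l41) (t44) (l45) 0 0 0 0 0 0 0 0 0 (t60) 0 0 0 0 0 (t71) * E f 0 (l37) 0 0 0 (l41) (t44) (l45) 0 0 0 0 0 0 0 0 0 (t60) 0 0 0 0 0 (t71) = 1) : Res f (E f 0 (l37) 0 0 0 (l41) (t44) (l45) 0 0 0 0 0 0 0 0 0 (t60) 0 0 0 0 0 (t71)) := by
  obtain ⟨it39, it44, it46, it47, it51, it53, it60, it63, it65, it69, it70, it71⟩ := inv_of_mem d hm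
  obtain ⟨y, rfl⟩ := solve_tr d hp37 it44
  have c : Cj f (E f 0 (l37) 0 0 0 (l41) ((l37) * f y + f (l37) * y) (l45) 0 0 0 0 0 0 0 0 0 (t60) 0 0 0 0 0 (t71)) (E f 0 (l37) 0 0 0 (l41) 0 (l45) 0 0 0 0 0 0 0 0 0 (t60) 0 0 0 0 0 (t71)) := cjS f (E_mem_G1 d (map_zero f) (map_zero f) (map_zero f) (map_zero f) (map_zero f) (map_zero f) (map_zero f) (map_zero f) (map_zero f) (map_zero f) (map_zero f) (map_zero f) 0 0 0 (y) 0 0 0 0 0 0 0 0) (st_F1_2_1_1_1_1 d.hff it60 it71)
  exact Res.of_cj f c (F1_2_1_1_1_1_1 d hp71 hp37 (c.mem f hm) (c.sq f hs))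

theorem F1_2_1_1_1 {l37 l40 l41 l45 t44 t60 t71 : K} (d : Dt f) (hp71 : t71 ≠ 0) (hp37 : l37 ≠ 0) (hm : E f 0 (l37) 0 0 (l40) (l41) (t44) (l45) 0 0 0 0 0 0 0 0 0 (t60) 0 0 0 0 0 (t71) ∈ (sc f).G1) (hs : E f 0 (l37) 0 0 (l40) (l41) (t44) (l45) 0 0 0 0 0 0 0 0 0 (t60) 0 0 0 0 0 (t71) * E f 0 (l37) 0 0 (l40) (l41) (t44) (l45) 0 0 0 0 0 0 0 0 0 (t60) 0 0 0 0 0 (t71) = 1) : Res f (E f 0 (l37) 0 0 (l40) (l41) (t44) (l45) 0 0 0 0 0 0 0 0 0 (t60) 0 0 0 0 0 (t71)) := by
  obtain ⟨it39, it44, it46, it47, it51, it53, it60, it63, it65, it69, it70, it71⟩ := inv_of_mem d hm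
  have h2 : (2 : K) = 0 := CharTwo.two_eq_zero
  have h3 : (l37) * f l40 + l40 * f (l37) = 0 := by
    have h := hs
    unfold E at h
    rw [W_mul, ← W_zero] at h
    obtain ⟨-, -, -, -, -, -, -, -, h44, -, -, -, -, -, -, -, -, -, -, -, -, -, -, -, -, -, -, -, -, -, -, -, -, -, -, -⟩ := W_inj h
    try simp only [map_zero] at h44
    linear_combination (-t44 - l40*(f l37)) * h2 + h44
  obtain ⟨w, hw, rfl⟩ := solve_sq hp37 d.hff h3
  have c : Cj f (E f 0 (l37) 0 0 ((l37) * w) (l41) (t44) (l45) 0 0 0 0 0 0 0 0 0 (t60) 0 0 0 0 0 (t71)) (E f 0 (l37) 0 0 0 (l41) (t44 + l37*w*(f l37)) (l45) 0 0 0 0 0 0 0 0 0 (t60) 0 0 0 0 0 (t71)) := cjS f (E_mem_G1 d hw (map_zero f) (map_zero f) (map_zero f) (map_zero f) (map_zero f) (map_zero f) (map_zero f) (map_zero f) (map_zero f) (map_zero f) (map_zero f) 0 0 0 0 0 0 0 0 0 0 0 0) (st_F1_2_1_1_1 d.hff it44 it60 it71 hw)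
  exact Res.of_cj f c (F1_2_1_1_1_1 d hp71 hp37 (c.mem f hm) (c.sq f hs))

theorem F1_2_1_1 {l37 l38 l40 l41 l45 t44 t60 t71 : K} (d : Dt f) (hp71 : t71 ≠ 0) (hp37 : l37 ≠ 0) (hm : E f 0 (l37) (l38) 0 (l40) (l41) (t44) (l45) 0 0 0 0 0 0 0 0 0 (t60) 0 0 0 0 0 (t71) ∈ (sc f).G1) (hs : E f 0 (l37) (l38) 0 (l40) (l41) (t44) (l45) 0 0 0 0 0 0 0 0 0 (t60) 0 0 0 0 0 (t71) * E f 0 (l37) (l38) 0 (l40) (l41) (t44) (l45) 0 0 0 0 0 0 0 0 0 (t60) 0 0 0 0 0 (t71) = 1) : Res f (E f 0 (l37) (l38) 0 (l40) (l41) (t44) (l45) 0 0 0 0 0 0 0 0 0 (t60) 0 0 0 0 0 (t71)) := by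
  obtain ⟨it39, it44, it46, it47, it51, it53, it60, it63, it65, it69, it70, it71⟩ := inv_of_mem d hm
  obtain ⟨y, rfl⟩ := solve_mul hp37 l38
  have c : Cj f (E f 0 (l37) ((l37) * y) 0 (l40) (l41) (t44) (l45) 0 0 0 0 0 0 0 0 0 (t60) 0 0 0 0 0 (t71)) (E f 0 (l37) 0 0 (l40) (l41 + l40*y) (t44) (l45 + t44*y) 0 0 0 0 0 0 0 0 0 (t60 + l45*(f y) + y*(f l45) + t44*y*(f y)) 0 0 0 0 0 (t71)) := cjS f (E_mem_G1 d (map_zero f) (map_zero f) (map_zero f) (map_zero f) (map_zero f) (map_zero f) (map_zero f) (map_zero f) (map_zero f) (map_zero f) (map_zero f) (map_zero f) (y) 0 0 0 0 0 0 0 0 0 0 0) (st_F1_2_1_1 d.hff it44 it60 it71)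
  exact Res.of_cj f c (F1_2_1_1_1 d hp71 hp37 (c.mem f hm) (c.sq f hs))

theorem F1_2_1 {l37 l38 l40 l41 l45 t39 t44 t60 t71 : K} (d : Dt f) (hp71 : t71 ≠ 0) (hp37 : l37 ≠ 0) (hm : E f 0 (l37) (l38) (t39) (l40) (l41) (t44) (l45) 0 0 0 0 0 0 0 0 0 (t60) 0 0 0 0 0 (t71) ∈ (sc f).G1) (hs : E f 0 (l37) (l38) (t39) (l40) (l41) (t44) (l45) 0 0 0 0 0 0 0 0 0 (t60) 0 0 0 0 0 (t71) * E f 0 (l37) (l38) (t39) (l40) (l41) (t44) (l45) 0 0 0 0 0 0 0 0 0 (t60) 0 0 0 0 0 (t71) = 1) : Res f (E f 0 (l37) (l38) (t39) (l40) (l41) (t44) (l45) 0 0 0 0 0 0 0 0 0 (t60) 0 0 0 0 0 (t71)) := by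
  have h2 : (2 : K) = 0 := CharTwo.two_eq_zero
  have hz : t39 = 0 := by
    have h := hs
    unfold E at h
    rw [W_mul, ← W_zero] at h
    obtain ⟨-, -, -, -, h40, -, -, -, -, -, -, -, -, -, -, -, -, -, -, -, -, -, -, -, -, -, -, -, -, -, -, -, -, -, -, -⟩ := W_inj h
    try simp only [map_zero] at h40
    have key : l37*t39 = 0 := by linear_combination (-l40) * h2 + h40
    simpa [mul_eq_zero, map_eq_zero, pow_eq_zero_iff, hp71, hp37] using key
  subst hz
  exact F1_2_1_1 d hp71 hp37 hm hs

theorem F1_2 {l36 l37 l38 l40 l41 l45 t39 t44 t60 t71 : K} (d : Dt f) (hp71 : t71 ≠ 0) (hp37 : l37 ≠ 0) (hm : E f (l36) (l37) (l38) (t39) (l40) (l41) (t44) (l45) 0 0 0 0 0 0 0 0 0 (t60) 0 0 0 0 0 (t71) ∈ (sc f).G1) (hs : E f (l36) (l37) (l38) (t39) (l40) (l41) (t44) (l45) 0 0 0 0 0 0 0 0 0 (t60) 0 0 0 0 0 (t71) * E f (l36) (l37) (l38) (t39) (l40) (l41) (t44) (l45) 0 0 0 0 0 0 0 0 0 (t60) 0 0 0 0 0 (t71) = 1) : Res f (E f (l36) (l37) (l38) (t39) (l40) (l41) (t44) (l45) 0 0 0 0 0 0 0 0 0 (t60) 0 0 0 0 0 (t71)) := by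
  have h2 : (2 : K) = 0 := CharTwo.two_eq_zero
  have hz : l36 = 0 := by
    have h := hs
    unfold E at h
    rw [W_mul, ← W_zero] at h
    obtain ⟨-, -, h38, -, -, -, -, -, -, -, -, -, -, -, -, -, -, -, -, -, -, -, -, -, -, -, -, -, -, -, -, -, -, -, -, -⟩ := W_inj h
    try simp only [map_zero] at h38
    have key : l36*l37 = 0 := by linear_combination (-l38) * h2 + h38
    simpa [mul_eq_zero, map_eq_zero, pow_eq_zero_iff, hp71, hp37] using key
  subst hz
  exact F1_2_1 d hp71 hp37 hm hs

theorem F1 {l36 l37 l38 l40 l41 l45 t39 t44 t60 t71 : K} (d : Dt f) (hp71 : t71 ≠ 0) (hm : E f (l36) (l37) (l38) (t39) (l40) (l41) (t44) (l45) 0 0 0 0 0 0 0 0 0 (t60) 0 0 0 0 0 (t71) ∈ (sc f).G1) (hs : E f (l36) (l37) (l38) (t39) (l40) (l41) (t44) (l45) 0 0 0 0 0 0 0 0 0 (t60) 0 0 0 0 0 (t71) * E f (l36) (l37) (l38) (t39) (l40) (l41) (t44) (l45) 0 0 0 0 0 0 0 0 0 (t60) 0 0 0 0 0 (t71) = 1) : Res f (E f (l36) (l37) (l38) (t39) (l40) (l41) (t44) (l45) 0 0 0 0 0 0 0 0 0 (t60) 0 0 0 0 0 (t71)) := by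
  by_cases hz : l37 = 0
  · subst hz
    exact F1_1 d hp71 hm hs
  · exact F1_2 d hp71 hz hm hs

end Cfsg.Agent.Lib.E6Inv50
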