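import Cfsg.Agent.Lib.E6Inv50G

/-!
# The involutions of `²E₆(q)`, `q` even: reduction chains
-/

set_option autoImplicit false
set_option linter.unusedSectionVars false
set_option linter.unusedVariables false
set_option linter.unusedSimpArgs false
set_option maxRecDepth 100000
set_option maxHeartbeats 4000000
set_option linter.unusedTactic false
set_option linter.unreachableTactic false

namespace Cfsg.Agent.Lib.E6Inv50

open Cfsg Cfsg.Lie Cfsg.Agent.Lib.Chev Cfsg.Agent.Lib.Chev.TwE6

variable {K : Type*} [Field K] [CharP K 2] [Fintype K] {f : K ≃+* K}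

theorem st_LA {l36 l37 l38 l40 l41 l45 l48 l49 l52 l54 l55 l66 t39 t44 t46 t51 t53 t60 t63 t65 t69 t70 t71 w : K} (hff : ∀ t, f (f t) = t) (it39 : f t39 = t39) (it44 : f t44 = t44) (it46 : f t46 = t46) (it51 : f t51 = t51) (it53 : f t53 = t53) (it60 : f t60 = t60) (it63 : f t63 = t63) (it65 : f t65 = t65) (it69 : f t69 = t69) (it70 : f t70 = t70) (it71 : f t71 = t71) (iw : f w = w) :
    E f 0 0 0 (w) 0 0 0 0 0 0 0 0 0 0 0 0 0 0 0 0 0 0 0 0 * E f (l36) (l37) (l38) (t39) (l40) (l41) (t44) (l45) (t46) ((t46) * w) (l48) (l49) (t51) (l52) (t53) (l54) (l55) (t60) (t63) (t65) (l66) (t69) (t70) (t71) = E f (l36) (l37) (l38) (t39) (l40 + l37*w) (l41 + l38*w) (t44 + l37*w*(f l37)) (l45 + l38*w*(f l37)) (t46) 0 (l48) (l49) (t51) (l52) (t53 + t51*w) (l54 + l52*w) (l55) (t60 + l38*w*(f l38)) (t63 + l38*t46*w*(f l38)) (t65 + t63*w) (l66 + l38*l48*w*(f l38)) (t69 + l38*t51*w*(f l38)) (t70 + t69*w + l38*t53*w*(f l38) + l38*t51*w^2*(f l38)) (t71 + l52*w*(f l52) + l38*l48*w*(f l38)*(f l48) + l38*t46*t53*w*(f l38) + l38*t46*t51*w^2*(f l38))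 * E f 0 0 0 (w) 0 0 0 0 0 0 0 0 0 0 0 0 0 0 0 0 0 0 0 0 := by
  have h2 : (2 : K) = 0 := CharTwo.two_eq_zero
  unfold E
  rw [W_mul, W_mul]
  apply W_congr
  · (try simp only [map_add, map_mul, map_pow, map_zero, map_one, hff, it39, it44, it46, it51, it53, it60, it63, it65, it69, it70, it71, iw]) <;> linear_combination (0 : K) * h2
  · (try simp only [map_add, map_mul, map_pow, map_zero, map_one, hff, it39, it44, it46, it51, it53, it60, it63, it65, it69, it70, it71, iw]) <;> linear_combination (0 : K) * h2
  · (try simp only [map_add, map_mul, map_pow, map_zero, map_one, hff, it39, it44, it46, it51, it53, it60, it63, it65, it69, it70, it71, iw]) <;> linear_combination (0 : K) * h2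
  · (try simp only [map_add, map_mul, map_pow, map_zero, map_one, hff, it39, it44, it46, it51, it53, it60, it63, it65, it69, it70, it71, iw]) <;> linear_combination (0 : K) * h2
  · (try simp only [map_add, map_mul, map_pow, map_zero, map_one, hff, it39, it44, it46, it51, it53, it60, it63, it65, it69, it70, it71, iw]) <;> linear_combination (0 : K) * h2
  · (try simp only [map_add, map_mul, map_pow, map_zero, map_one, hff, it39, it44, it46, it51, it53, it60, it63, it65, it69, it70, it71, iw]) <;> linear_combination (0 : K) * h2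
  · (try simp only [map_add, map_mul, map_pow, map_zero, map_one, hff, it39, it44, it46, it51, it53, it60, it63, it65, it69, it70, it71, iw]) <;> linear_combination (0 : K) * h2
  · (try simp only [map_add, map_mul, map_pow, map_zero, map_one, hff, it39, it44, it46, it51, it53, it60, it63, it65, it69, it70, it71, iw]) <;> linear_combination (-w*(f l37)) * h2
  · (try simp only [map_add, map_mul, map_pow, map_zero, map_one, hff, it39, it44, it46, it51, it53, it60, it63, it65, it69, it70, it71, iw]) <;> linear_combination (-l37*w*(f l37)) * h2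
  · (try simp only [map_add, map_mul, map_pow, map_zero, map_one, hff, it39, it44, it46, it51, it53, it60, it63, it65, it69, it70, it71, iw]) <;> linear_combination (-l38*w*(f l37)) * h2
  · (try simp only [map_add, map_mul, map_pow, map_zero, map_one, hff, it39, it44, it46, it51, it53, it60, it63, it65, it69, it70, it71, iw]) <;> linear_combination (0 : K) * h2
  · (try simp only [map_add, map_mul, map_pow, map_zero, map_one, hff, it39, it44, it46, it51, it53, it60, it63, it65, it69, it70, it71, iw]) <;> linear_combination (0 : K) * h2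
  · (try simp only [map_add, map_mul, map_pow, map_zero, map_one, hff, it39, it44, it46, it51, it53, it60, it63, it65, it69, it70, it71, iw]) <;> linear_combination (0 : K) * h2
  · (try simp only [map_add, map_mul, map_pow, map_zero, map_one, hff, it39, it44, it46, it51, it53, it60, it63, it65, it69, it70, it71, iw]) <;> linear_combination (0 : K) * h2
  · (try simp only [map_add, map_mul, map_pow, map_zero, map_one, hff, it39, it44, it46, it51, it53, it60, it63, it65, it69, it70, it71, iw]) <;> linear_combination (0 : K) * h2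
  · (try simp only [map_add, map_mul, map_pow, map_zero, map_one, hff, it39, it44, it46, it51, it53, it60, it63, it65, it69, it70, it71, iw]) <;> linear_combination (0 : K) * h2
  · (try simp only [map_add, map_mul, map_pow, map_zero, map_one, hff, it39, it44, it46, it51, it53, it60, it63, it65, it69, it70, it71, iw]) <;> linear_combination (0 : K) * h2
  · (try simp only [map_add, map_mul, map_pow, map_zero, map_one, hff, it39, it44, it46, it51, it53, it60, it63, it65, it69, it70, it71, iw]) <;> linear_combination (-t51*w) * h2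
  · (try simp only [map_add, map_mul, map_pow, map_zero, map_one, hff, it39, it44, it46, it51, it53, it60, it63, it65, it69, it70, it71, iw]) <;> linear_combination (-l52*w) * h2
  · (try simp only [map_add, map_mul, map_pow, map_zero, map_one, hff, it39, it44, it46, it51, it53, it60, it63, it65, it69, it70, it71, iw]) <;> linear_combination (0 : K) * h2
  · (try simp only [map_add, map_mul, map_pow, map_zero, map_one, hff, it39, it44, it46, it51, it53, it60, it63, it65, it69, it70, it71, iw]) <;> linear_combination (0 : K) * h2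
  · (try simp only [map_add, map_mul, map_pow, map_zero, map_one, hff, it39, it44, it46, it51, it53, it60, it63, it65, it69, it70, it71, iw]) <;> linear_combination (0 : K) * h2
  · (try simp only [map_add, map_mul, map_pow, map_zero, map_one, hff, it39, it44, it46, it51, it53, it60, it63, it65, it69, it70, it71, iw]) <;> linear_combination (-w*(f l38) - w*(f l36)*(f l37)) * h2
  · (try simp only [map_add, map_mul, map_pow, map_zero, map_one, hff, it39, it44, it46, it51, it53, it60, it63, it65, it69, it70, it71, iw]) <;> linear_combination (-l37*w*(f l38) - l37*w*(f l36)*(f l37)) * h2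
  · (try simp only [map_add, map_mul, map_pow, map_zero, map_one, hff, it39, it44, it46, it51, it53, it60, it63, it65, it69, it70, it71, iw]) <;> linear_combination (-l38*w*(f l38) - l38*w*(f l36)*(f l37)) * h2
  · (try simp only [map_add, map_mul, map_pow, map_zero, map_one, hff, it39, it44, it46, it51, it53, it60, it63, it65, it69, it70, it71, iw]) <;> linear_combination (0 : K) * h2
  · (try simp only [map_add, map_mul, map_pow, map_zero, map_one, hff, it39, it44, it46, it51, it53, it60, it63, it65, it69, it70, it71, iw]) <;> linear_combination (-l37*t46*w*(f l38) - l37*t46*w*(f l36)*(f l37)) * h2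
  · (try simp only [map_add, map_mul, map_pow, map_zero, map_one, hff, it39, it44, it46, it51, it53, it60, it63, it65, it69, it70, it71, iw]) <;> linear_combination (-l38*t46*w*(f l38) - l38*t46*w*(f l36)*(f l37)) * h2
  · (try simp only [map_add, map_mul, map_pow, map_zero, map_one, hff, it39, it44, it46, it51, it53, it60, it63, it65, it69, it70, it71, iw]) <;> linear_combination (-w*(f l52) - l48*w*(f l38) - t51*w*(f l36) - l48*w*(f l36)*(f l37) - l37*t46*w^2*(f l38) - l37*t46*w^2*(f l36)*(f l37)) * h2
  · (try simp only [map_add, map_mul, map_pow, map_zero, map_one, hff, it39, it44, it46, it51, it53, it60, it63, it65, it69, it70, it71, iw]) <;> linear_combination (-t63*w - l49*w*(f l38) - l52*w*(f l36) - l49*w*(f l36)*(f l37) - l38*t46*w^2*(f l38) - l38*t46*w^2*(f l36)*(f l37)) * h2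
  · (try simp only [map_add, map_mul, map_pow, map_zero, map_one, hff, it39, it44, it46, it51, it53, it60, it63, it65, it69, it70, it71, iw]) <;> linear_combination (-l37*l49*w*(f l38) - l38*l48*w*(f l38) - l37*l49*w*(f l36)*(f l37) - l38*l48*w*(f l36)*(f l37)) * h2
  · (try simp only [map_add, map_mul, map_pow, map_zero, map_one, hff, it39, it44, it46, it51, it53, it60, it63, it65, it69, it70, it71, iw]) <;> linear_combination (-t51*w*(f l38) - l37*w*(f l38)*(f l48) - t51*w*(f l36)*(f l37) - l37*w*(f l36)*(f l37)*(f l48)) * h2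
  · (try simp only [map_add, map_mul, map_pow, map_zero, map_one, hff, it39, it44, it46, it51, it53, it60, it63, it65, it69, it70, it71, iw]) <;> linear_combination (-l52*w*(f l38) - l38*w*(f l38)*(f l48) - l52*w*(f l36)*(f l37) - l38*w*(f l36)*(f l37)*(f l48)) * h2
  · (try simp only [map_add, map_mul, map_pow, map_zero, map_one, hff, it39, it44, it46, it51, it53, it60, it63, it65, it69, it70, it71, iw]) <;> linear_combination (-l37*l52*w*(f l38) - l38*t51*w*(f l38) - l37*l52*w*(f l36)*(f l37) - l38*t51*w*(f l36)*(f l37)) * h2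
  · (try simp only [map_add, map_mul, map_pow, map_zero, map_one, hff, it39, it44, it46, it51, it53, it60, it63, it65, it69, it70, it71, iw]) <;> linear_combination (-t69*w - l52*w*(f l45) - l55*w*(f l38) - l37*l54*w*(f l38) - l38*t53*w*(f l38) - l40*l52*w*(f l38) - l41*t51*w*(f l38) - l45*t51*w*(f l36) - l52*t44*w*(f l36) - l55*w*(f l36)*(f l37) - 2*l37*l52*w^2*(f l38) - l37*l54*w*(f l36)*(f l37) - 2*l38*t51*w^2*(f l38) - l38*t53*w*(f l36)*(f l37) - l40*l52*w*(f l36)*(f l37) - l41*t51*w*(f l36)*(f l37) - 2*l37*l52*w^2*(f l36)*(f l37) - 2*l38*t51*w^2*(f l36)*(f l37)) * h2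
  · (try simp only [map_add, map_mul, map_pow, map_zero, map_one, hff, it39, it44, it46, it51, it53, it60, it63, it65, it69, it70, it71, iw]) <;> linear_combination (-l52*w*(f l52) - l48*l52*w*(f l38) - l49*t51*w*(f l38) - l52*t51*w*(f l36) - l37*l49*w*(f l38)*(f l48) - l37*l54*t46*w*(f l38) - l38*l48*w*(f l38)*(f l48) - l38*t46*t53*w*(f l38) - l48*l52*w*(f l36)*(f l37) - l49*t51*w*(f l36)*(f l37) - l37*l49*w*(f l36)*(f l37)*(f l48) - l37*l52*t46*w^2*(f l38) - l37*l54*t46*w*(f l36)*(f l37) - l38*l48*w*(f l36)*(f l37)*(f l48) - l38*t46*t51*w^2*(f l38) - l38*t46*t53*w*(f l36)*(f l37) - l37*l52*t46*w^2*(f l36)*(f l37) - l38*t46*t51*w^2*(f l36)*(f l37)) * h2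

theorem st_LA_1 {l36 l37 l38 l40 l41 l45 l49 l52 l54 l55 l66 t39 t44 t46 t51 t53 t60 t63 t65 t69 t70 t71 y : K} (hff : ∀ t, f (f t) = t) (it39 : f t39 = t39) (it44 : f t44 = t44) (it46 : f t46 = t46) (it51 : f t51 = t51) (it53 : f t53 = t53) (it60 : f t60 = t60) (it63 : f t63 = t63) (it65 : f t65 = t65) (it69 : f t69 = t69) (it70 : f t70 = t70) (it71 : f t71 = t71) :
    E f 0 0 0 0 (y) 0 0 0 0 0 0 0 0 0 0 0 0 0 0 0 0 0 0 0 * E f (l36) (l37) (l38) (t39) (l40) (l41) (t44) (l45) (t46) 0 ((t46) * y) (l49) (t51) (l52) (t53) (l54) (l55) (t60) (t63) (t65) (l66) (t69) (t70) (t71) = E f (l36) (l37) (l38) (t39) (l40) (l41 + l36*y) (t44 + l37*(f y) + y*(f l37)) (l45 + l38*(f y) + l36*y*(f l37)) (t46) 0 0 (l49) (t51) (l52) (t53 + t46*y*(f y)) (l54 + l49*(f y)) (l55 + l52*y) (t60 + l36*y*(f l38) + l38*(f l36)*(f y)) (t63 + l36*t46*y*(f l38) + l38*t46*(f l36)*(f y)) (t65) (l66 + t63*y) (t69 + l36*t51*y*(f l38) + l38*t51*(f l36)*(f y)) (t70 + l66*(f y) + y*(f l66) + t63*y*(f y) + l36*t53*y*(f l38) + l38*t53*(f l36)*(f y) + l36*t46*y^2*(f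 l38)*(f y) + l38*t46*y*(f l36)*(f y)^2) (t71 + l49*(f l52)*(f y) + l52*y*(f l49) + l36*t46*t53*y*(f l38) + l38*t46*t53*(f l36)*(f y) + l36*t46^2*y^2*(f l38)*(f y) + l38*t46^2*y*(f l36)*(f y)^2) * E f 0 0 0 0 (y) 0 0 0 0 0 0 0 0 0 0 0 0 0 0 0 0 0 0 0 := by
  have h2 : (2 : K) = 0 := CharTwo.two_eq_zero
  unfold E
  rw [W_mul, W_mul]
  apply W_congr
  · (try simp only [map_add, map_mul, map_pow, map_zero, map_one, hff, it39, it44, it46, it51, it53, it60, it63, it65, it69, it70, it71]) <;> linear_combination (0 : K) * h2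
  · (try simp only [map_add, map_mul, map_pow, map_zero, map_one, hff, it39, it44, it46, it51, it53, it60, it63, it65, it69, it70, it71]) <;> linear_combination (0 : K) * h2
  · (try simp only [map_add, map_mul, map_pow, map_zero, map_one, hff, it39, it44, it46, it51, it53, it60, it63, it65, it69, it70, it71]) <;> linear_combination (0 : K) * h2
  · (try simp only [map_add, map_mul, map_pow, map_zero, map_one, hff, it39, it44, it46, it51, it53, it60, it63, it65, it69, it70, it71]) <;> linear_combination (0 : K) * h2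
  · (try simp only [map_add, map_mul, map_pow, map_zero, map_one, hff, it39, it44, it46, it51, it53, it60, it63, it65, it69, it70, it71]) <;> linear_combination (0 : K) * h2
  · (try simp only [map_add, map_mul, map_pow, map_zero, map_one, hff, it39, it44, it46, it51, it53, it60, it63, it65, it69, it70, it71]) <;> linear_combination (0 : K) * h2
  · (try simp only [map_add, map_mul, map_pow, map_zero, map_one, hff, it39, it44, it46, it51, it53, it60, it63, it65, it69, it70, it71]) <;> linear_combination (0 : K) * h2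
  · (try simp only [map_add, map_mul, map_pow, map_zero, map_one, hff, it39, it44, it46, it51, it53, it60, it63, it65, it69, it70, it71]) <;> linear_combination (0 : K) * h2
  · (try simp only [map_add, map_mul, map_pow, map_zero, map_one, hff, it39, it44, it46, it51, it53, it60, it63, it65, it69, it70, it71]) <;> linear_combination (-y*(f l37)) * h2
  · (try simp only [map_add, map_mul, map_pow, map_zero, map_one, hff, it39, it44, it46, it51, it53, it60, it63, it65, it69, it70, it71]) <;> linear_combination (-l36*y*(f l37)) * h2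
  · (try simp only [map_add, map_mul, map_pow, map_zero, map_one, hff, it39, it44, it46, it51, it53, it60, it63, it65, it69, it70, it71]) <;> linear_combination (0 : K) * h2
  · (try simp only [map_add, map_mul, map_pow, map_zero, map_one, hff, it39, it44, it46, it51, it53, it60, it63, it65, it69, it70, it71]) <;> linear_combination (0 : K) * h2
  · (try simp only [map_add, map_mul, map_pow, map_zero, map_one, hff, it39, it44, it46, it51, it53, it60, it63, it65, it69, it70, it71]) <;> linear_combination (0 : K) * h2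
  · (try simp only [map_add, map_mul, map_pow, map_zero, map_one, hff, it39, it44, it46, it51, it53, it60, it63, it65, it69, it70, it71]) <;> linear_combination (0 : K) * h2
  · (try simp only [map_add, map_mul, map_pow, map_zero, map_one, hff, it39, it44, it46, it51, it53, it60, it63, it65, it69, it70, it71]) <;> linear_combination (0 : K) * h2
  · (try simp only [map_add, map_mul, map_pow, map_zero, map_one, hff, it39, it44, it46, it51, it53, it60, it63, it65, it69, it70, it71]) <;> linear_combination (0 : K) * h2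
  · (try simp only [map_add, map_mul, map_pow, map_zero, map_one, hff, it39, it44, it46, it51, it53, it60, it63, it65, it69, it70, it71]) <;> linear_combination (0 : K) * h2
  · (try simp only [map_add, map_mul, map_pow, map_zero, map_one, hff, it39, it44, it46, it51, it53, it60, it63, it65, it69, it70, it71]) <;> linear_combination (-t46*y*(f y)) * h2
  · (try simp only [map_add, map_mul, map_pow, map_zero, map_one, hff, it39, it44, it46, it51, it53, it60, it63, it65, it69, it70, it71]) <;> linear_combination (-l49*(f y)) * h2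
  · (try simp only [map_add, map_mul, map_pow, map_zero, map_one, hff, it39, it44, it46, it51, it53, it60, it63, it65, it69, it70, it71]) <;> linear_combination (-l52*y) * h2
  · (try simp only [map_add, map_mul, map_pow, map_zero, map_one, hff, it39, it44, it46, it51, it53, it60, it63, it65, it69, it70, it71]) <;> linear_combination (0 : K) * h2
  · (try simp only [map_add, map_mul, map_pow, map_zero, map_one, hff, it39, it44, it46, it51, it53, it60, it63, it65, it69, it70, it71]) <;> linear_combination (0 : K) * h2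
  · (try simp only [map_add, map_mul, map_pow, map_zero, map_one, hff, it39, it44, it46, it51, it53, it60, it63, it65, it69, it70, it71]) <;> linear_combination (-(f l36)*(f y)) * h2
  · (try simp only [map_add, map_mul, map_pow, map_zero, map_one, hff, it39, it44, it46, it51, it53, it60, it63, it65, it69, it70, it71]) <;> linear_combination (-y*(f l38) - l37*(f l36)*(f y) - y*(f l36)*(f l37)) * h2
  · (try simp only [map_add, map_mul, map_pow, map_zero, map_one, hff, it39, it44, it46, it51, it53, it60, it63, it65, it69, it70, it71]) <;> linear_combination (-l36*y*(f l38) - l38*(f l36)*(f y) - l36*y*(f l36)*(f l37)) * h2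
  · (try simp only [map_add, map_mul, map_pow, map_zero, map_one, hff, it39, it44, it46, it51, it53, it60, it63, it65, it69, it70, it71]) <;> linear_combination (0 : K) * h2
  · (try simp only [map_add, map_mul, map_pow, map_zero, map_one, hff, it39, it44, it46, it51, it53, it60, it63, it65, it69, it70, it71]) <;> linear_combination (-l37*t46*(f l36)*(f y)) * h2
  · (try simp only [map_add, map_mul, map_pow, map_zero, map_one, hff, it39, it44, it46, it51, it53, it60, it63, it65, it69, it70, it71]) <;> linear_combination (-l36*t46*y*(f l38) - l38*t46*(f l36)*(f y) - l36*t46*y*(f l36)*(f l37)) * h2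
  · (try simp only [map_add, map_mul, map_pow, map_zero, map_one, hff, it39, it44, it46, it51, it53, it60, it63, it65, it69, it70, it71]) <;> linear_combination (-y*(f l49) - t46*y*(f l36)*(f y)) * h2
  · (try simp only [map_add, map_mul, map_pow, map_zero, map_one, hff, it39, it44, it46, it51, it53, it60, it63, it65, it69, it70, it71]) <;> linear_combination (-l49*(f l36)*(f y)) * h2
  · (try simp only [map_add, map_mul, map_pow, map_zero, map_one, hff, it39, it44, it46, it51, it53, it60, it63, it65, it69, it70, it71]) <;> linear_combination (-t63*y - l49*y*(f l38) - l52*y*(f l36) - l37*l49*(f l36)*(f y) - l49*y*(f l36)*(f l37) - l36*t46*y^2*(f l38) - l38*t46*y*(f l36)*(f y) - l36*t46*y^2*(f l36)*(f l37)) * h2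
  · (try simp only [map_add, map_mul, map_pow, map_zero, map_one, hff, it39, it44, it46, it51, it53, it60, it63, it65, it69, it70, it71]) <;> linear_combination (-(f l52)*(f y) - t51*(f l36)*(f y) - t46*y*(f l38)*(f y) - l37*t46*(f l36)*(f y)^2 - t46*y*(f l36)*(f l37)*(f y)) * h2
  · (try simp only [map_add, map_mul, map_pow, map_zero, map_one, hff, it39, it44, it46, it51, it53, it60, it63, it65, it69, it70, it71]) <;> linear_combination (-t63*(f y) - l49*(f l38)*(f y) - l52*(f l36)*(f y) - l49*(f l36)*(f l37)*(f y) - l36*t46*y*(f l38)*(f y) - l38*t46*(f l36)*(f y)^2 - l36*t46*y*(f l36)*(f l37)*(f y)) * h2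
  · (try simp only [map_add, map_mul, map_pow, map_zero, map_one, hff, it39, it44, it46, it51, it53, it60, it63, it65, it69, it70, it71]) <;> linear_combination (-l52*y*(f l38) - l36*t51*y*(f l38) - l37*l52*(f l36)*(f y) - l38*t51*(f l36)*(f y) - l52*y*(f l36)*(f l37) - l36*t51*y*(f l36)*(f l37)) * h2
  · (try simp only [map_add, map_mul, map_pow, map_zero, map_one, hff, it39, it44, it46, it51, it53, it60, it63, it65, it69, it70, it71]) <;> linear_combination (-l66*(f y) - y*(f l66) - l49*(f l45)*(f y) - l52*y*(f l41) - l54*y*(f l38) - l55*(f l36)*(f y) - 2*t63*y*(f y) - l36*t53*y*(f l38) - l37*l54*(f l36)*(f y) - l38*t53*(f l36)*(f y) - l40*l49*(f l38)*(f y) - l49*t44*(f l36)*(f y) - 2*l49*y*(f l38)*(f y) - l52*t39*y*(f l38) - l52*y*(f l36)*(f l40) - 2*l52*y*(f l36)*(f y) - l54*y*(f l36)*(f l37) - l36*t53*y*(f l36)*(f l37) - 2*l37*l49*(f l36)*(f y)^2 - l40*l49*(f l36)*(f l37)*(f y) - l41*t46*y*(f l38)*(f y) - l45*t46*y*(f l36)*(f y) - 2*l49*y*(f l36)*(f l37)*(f y) - l52*t39*y*(f l36)*(f l37) - 2*l36*t46*y^2*(f l38)*(f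 y) - 2*l38*t46*y*(f l36)*(f y)^2 - l41*t46*y*(f l36)*(f l37)*(f y) - 2*l36*t46*y^2*(f l36)*(f l37)*(f y)) * h2
  · (try simp only [map_add, map_mul, map_pow, map_zero, map_one, hff, it39, it44, it46, it51, it53, it60, it63, it65, it69, it70, it71]) <;> linear_combination (-l49*(f l52)*(f y) - l52*y*(f l49) - l49*t51*(f l36)*(f y) - l36*t46*t53*y*(f l38) - l37*l54*t46*(f l36)*(f y) - l38*t46*t53*(f l36)*(f y) - l49*t46*y*(f l38)*(f y) - l52*t46*y*(f l36)*(f y) - l36*t46*t53*y*(f l36)*(f l37) - l37*l49*t46*(f l36)*(f y)^2 - l49*t46*y*(f l36)*(f l37)*(f y) - l36*t46^2*y^2*(f l38)*(f y) - l38*t46^2*y*(f l36)*(f y)^2 - l36*t46^2*y^2*(f l36)*(f l37)*(f y)) * h2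

theorem st_LA_1_1 {l36 l37 l38 l40 l41 l45 l52 l54 l55 l66 t39 t44 t46 t51 t53 t60 t63 t65 t69 t70 t71 y : K} (hff : ∀ t, f (f t) = t) (it39 : f t39 = t39) (it44 : f t44 = t44) (it46 : f t46 = t46) (it51 : f t51 = t51) (it53 : f t53 = t53) (it60 : f t60 = t60) (it63 : f t63 = t63) (it65 : f t65 = t65) (it69 : f t69 = t69) (it70 : f t70 = t70) (it71 : f t71 = t71) :
    E f 0 0 0 0 0 (y) 0 0 0 0 0 0 0 0 0 0 0 0 0 0 0 0 0 0 * E f (l36) (l37) (l38) (t39) (l40) (l41) (t44) (l45) (t46) 0 0 ((t46) * y) (t51) (l52) (t53) (l54) (l55) (t60) (t63) (t65) (l66) (t69) (t70) (t71) = E f (l36) (l37) (l38) (t39) (l40) (l41) (t44) (l45 + y*(f l37)) (t46) 0 0 0 (t51) (l52) (t53) (l54) (l55 + t51*y) (t60 + l38*(f y) + y*(f l38)) (t63 + l38*t46*(f y) + t46*y*(f l38)) (t65 + t46*y*(f y)) (l66 + y*(f l52)) (t69 + l38*t51*(f y) + t51*y*(f l38)) (t70 + l55*(f y) + y*(f l55) + l38*t53*(f y) + t51*y*(f y) + t53*y*(f l38)) (t71 + l38*t46*t53*(f y) + t46*t51*y*(f y) + t46*t53*y*(f l38)) * E f 0 0 0 0 0 (y) 0 0 0 0 0 0 0 0 0 0 0 0 0 0 0 0 0 0 := by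
  have h2 : (2 : K) = 0 := CharTwo.two_eq_zero
  unfold E
  rw [W_mul, W_mul]
  apply W_congr
  · (try simp only [map_add, map_mul, map_pow, map_zero, map_one, hff, it39, it44, it46, it51, it53, it60, it63, it65, it69, it70, it71]) <;> linear_combination (0 : K) * h2
  · (try simp only [map_add, map_mul, map_pow, map_zero, map_one, hff, it39, it44, it46, it51, it53, it60, it63, it65, it69, it70, it71]) <;> linear_combination (0 : K) * h2
  · (try simp only [map_add, map_mul, map_pow, map_zero, map_one, hff, it39, it44, it46, it51, it53, it60, it63, it65, it69, it70, it71]) <;> linear_combination (0 : K) * h2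
  · (try simp only [map_add, map_mul, map_pow, map_zero, map_one, hff, it39, it44, it46, it51, it53, it60, it63, it65, it69, it70, it71]) <;> linear_combination (0 : K) * h2
  · (try simp only [map_add, map_mul, map_pow, map_zero, map_one, hff, it39, it44, it46, it51, it53, it60, it63, it65, it69, it70, it71]) <;> linear_combination (0 : K) * h2
  · (try simp only [map_add, map_mul, map_pow, map_zero, map_one, hff, it39, it44, it46, it51, it53, it60, it63, it65, it69, it70, it71]) <;> linear_combination (0 : K) * h2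
  · (try simp only [map_add, map_mul, map_pow, map_zero, map_one, hff, it39, it44, it46, it51, it53, it60, it63, it65, it69, it70, it71]) <;> linear_combination (0 : K) * h2
  · (try simp only [map_add, map_mul, map_pow, map_zero, map_one, hff, it39, it44, it46, it51, it53, it60, it63, it65, it69, it70, it71]) <;> linear_combination (0 : K) * h2
  · (try simp only [map_add, map_mul, map_pow, map_zero, map_one, hff, it39, it44, it46, it51, it53, it60, it63, it65, it69, it70, it71]) <;> linear_combination (0 : K) * h2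
  · (try simp only [map_add, map_mul, map_pow, map_zero, map_one, hff, it39, it44, it46, it51, it53, it60, it63, it65, it69, it70, it71]) <;> linear_combination (-y*(f l37)) * h2
  · (try simp only [map_add, map_mul, map_pow, map_zero, map_one, hff, it39, it44, it46, it51, it53, it60, it63, it65, it69, it70, it71]) <;> linear_combination (0 : K) * h2
  · (try simp only [map_add, map_mul, map_pow, map_zero, map_one, hff, it39, it44, it46, it51, it53, it60, it63, it65, it69, it70, it71]) <;> linear_combination (0 : K) * h2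
  · (try simp only [map_add, map_mul, map_pow, map_zero, map_one, hff, it39, it44, it46, it51, it53, it60, it63, it65, it69, it70, it71]) <;> linear_combination (0 : K) * h2
  · (try simp only [map_add, map_mul, map_pow, map_zero, map_one, hff, it39, it44, it46, it51, it53, it60, it63, it65, it69, it70, it71]) <;> linear_combination (0 : K) * h2
  · (try simp only [map_add, map_mul, map_pow, map_zero, map_one, hff, it39, it44, it46, it51, it53, it60, it63, it65, it69, it70, it71]) <;> linear_combination (0 : K) * h2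
  · (try simp only [map_add, map_mul, map_pow, map_zero, map_one, hff, it39, it44, it46, it51, it53, it60, it63, it65, it69, it70, it71]) <;> linear_combination (0 : K) * h2
  · (try simp only [map_add, map_mul, map_pow, map_zero, map_one, hff, it39, it44, it46, it51, it53, it60, it63, it65, it69, it70, it71]) <;> linear_combination (0 : K) * h2
  · (try simp only [map_add, map_mul, map_pow, map_zero, map_one, hff, it39, it44, it46, it51, it53, it60, it63, it65, it69, it70, it71]) <;> linear_combination (0 : K) * h2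
  · (try simp only [map_add, map_mul, map_pow, map_zero, map_one, hff, it39, it44, it46, it51, it53, it60, it63, it65, it69, it70, it71]) <;> linear_combination (0 : K) * h2
  · (try simp only [map_add, map_mul, map_pow, map_zero, map_one, hff, it39, it44, it46, it51, it53, it60, it63, it65, it69, it70, it71]) <;> linear_combination (-t51*y) * h2
  · (try simp only [map_add, map_mul, map_pow, map_zero, map_one, hff, it39, it44, it46, it51, it53, it60, it63, it65, it69, it70, it71]) <;> linear_combination (0 : K) * h2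
  · (try simp only [map_add, map_mul, map_pow, map_zero, map_one, hff, it39, it44, it46, it51, it53, it60, it63, it65, it69, it70, it71]) <;> linear_combination (0 : K) * h2
  · (try simp only [map_add, map_mul, map_pow, map_zero, map_one, hff, it39, it44, it46, it51, it53, it60, it63, it65, it69, it70, it71]) <;> linear_combination (0 : K) * h2
  · (try simp only [map_add, map_mul, map_pow, map_zero, map_one, hff, it39, it44, it46, it51, it53, it60, it63, it65, it69, it70, it71]) <;> linear_combination (0 : K) * h2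
  · (try simp only [map_add, map_mul, map_pow, map_zero, map_one, hff, it39, it44, it46, it51, it53, it60, it63, it65, it69, it70, it71]) <;> linear_combination (-y*(f l38) - y*(f l36)*(f l37)) * h2
  · (try simp only [map_add, map_mul, map_pow, map_zero, map_one, hff, it39, it44, it46, it51, it53, it60, it63, it65, it69, it70, it71]) <;> linear_combination (t46*(f y)) * h2
  · (try simp only [map_add, map_mul, map_pow, map_zero, map_one, hff, it39, it44, it46, it51, it53, it60, it63, it65, it69, it70, it71]) <;> linear_combination (0 : K) * h2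
  · (try simp only [map_add, map_mul, map_pow, map_zero, map_one, hff, it39, it44, it46, it51, it53, it60, it63, it65, it69, it70, it71]) <;> linear_combination (0 : K) * h2
  · (try simp only [map_add, map_mul, map_pow, map_zero, map_one, hff, it39, it44, it46, it51, it53, it60, it63, it65, it69, it70, it71]) <;> linear_combination (0 : K) * h2
  · (try simp only [map_add, map_mul, map_pow, map_zero, map_one, hff, it39, it44, it46, it51, it53, it60, it63, it65, it69, it70, it71]) <;> linear_combination (0 : K) * h2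
  · (try simp only [map_add, map_mul, map_pow, map_zero, map_one, hff, it39, it44, it46, it51, it53, it60, it63, it65, it69, it70, it71]) <;> linear_combination (-y*(f l52) - t51*y*(f l36)) * h2
  · (try simp only [map_add, map_mul, map_pow, map_zero, map_one, hff, it39, it44, it46, it51, it53, it60, it63, it65, it69, it70, it71]) <;> linear_combination (0 : K) * h2
  · (try simp only [map_add, map_mul, map_pow, map_zero, map_one, hff, it39, it44, it46, it51, it53, it60, it63, it65, it69, it70, it71]) <;> linear_combination (0 : K) * h2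
  · (try simp only [map_add, map_mul, map_pow, map_zero, map_one, hff, it39, it44, it46, it51, it53, it60, it63, it65, it69, it70, it71]) <;> linear_combination (-t51*y*(f l38) - t51*y*(f l36)*(f l37)) * h2
  · (try simp only [map_add, map_mul, map_pow, map_zero, map_one, hff, it39, it44, it46, it51, it53, it60, it63, it65, it69, it70, it71]) <;> linear_combination (-y*(f l55) - t51*y*(f l41) - t51*y*(f y) - t53*y*(f l38) - t39*t51*y*(f l38) - t51*y*(f l36)*(f l40) - t53*y*(f l36)*(f l37) - t39*t51*y*(f l36)*(f l37)) * h2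
  · (try simp only [map_add, map_mul, map_pow, map_zero, map_one, hff, it39, it44, it46, it51, it53, it60, it63, it65, it69, it70, it71]) <;> linear_combination (l55*t46*(f y)) * h2

theorem st_LA_1_1_1 {l36 l37 l38 l40 l41 l45 l52 l54 l55 l66 t39 t44 t46 t53 t60 t63 t65 t69 t70 t71 w : K} (hff : ∀ t, f (f t) = t) (it39 : f t39 = t39) (it44 : f t44 = t44) (it46 : f t46 = t46) (it53 : f t53 = t53) (it60 : f t60 = t60) (it63 : f t63 = t63) (it65 : f t65 = t65) (it69 : f t69 = t69) (it70 : f t70 = t70) (it71 : f t71 = t71) (iw : f w = w) :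
    E f 0 0 0 0 0 0 (w) 0 0 0 0 0 0 0 0 0 0 0 0 0 0 0 0 0 * E f (l36) (l37) (l38) (t39) (l40) (l41) (t44) (l45) (t46) 0 0 0 ((t46) * w) (l52) (t53) (l54) (l55) (t60) (t63) (t65) (l66) (t69) (t70) (t71) = E f (l36) (l37) (l38) (t39) (l40) (l41) (t44) (l45 + l36*w) (t46) 0 0 0 0 (l52) (t53) (l54) (l55) (t60 + l36*w*(f l36)) (t63 + l36*t46*w*(f l36)) (t65) (l66) (t69 + t63*w) (t70 + t65*w + l36*t53*w*(f l36)) (t71 + l36*t46*t53*w*(f l36)) * E f 0 0 0 0 0 0 (w) 0 0 0 0 0 0 0 0 0 0 0 0 0 0 0 0 0 := by
  have h2 : (2 : K) = 0 := CharTwo.two_eq_zero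
  unfold E
  rw [W_mul, W_mul]
  apply W_congr
  · (try simp only [map_add, map_mul, map_pow, map_zero, map_one, hff, it39, it44, it46, it53, it60, it63, it65, it69, it70, it71, iw]) <;> linear_combination (0 : K) * h2
  · (try simp only [map_add, map_mul, map_pow, map_zero, map_one, hff, it39, it44, it46, it53, it60, it63, it65, it69, it70, it71, iw]) <;> linear_combination (0 : K) * h2
  · (try simp only [map_add, map_mul, map_pow, map_zero, map_one, hff, it39, it44, it46, it53, it60, it63, it65, it69, it70, it71, iw]) <;> linear_combination (0 : K) * h2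
  · (try simp only [map_add, map_mul, map_pow, map_zero, map_one, hff, it39, it44, it46, it53, it60, it63, it65, it69, it70, it71, iw]) <;> linear_combination (0 : K) * h2
  · (try simp only [map_add, map_mul, map_pow, map_zero, map_one, hff, it39, it44, it46, it53, it60, it63, it65, it69, it70, it71, iw]) <;> linear_combination (0 : K) * h2
  · (try simp only [map_add, map_mul, map_pow, map_zero, map_one, hff, it39, it44, it46, it53, it60, it63, it65, it69, it70, it71, iw]) <;> linear_combination (0 : K) * h2
  · (try simp only [map_add, map_mul, map_pow, map_zero, map_one, hff, it39, it44, it46, it53, it60, it63, it65, it69, it70, it71, iw]) <;> linear_combination (0 : K) * h2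
  · (try simp only [map_add, map_mul, map_pow, map_zero, map_one, hff, it39, it44, it46, it53, it60, it63, it65, it69, it70, it71, iw]) <;> linear_combination (0 : K) * h2
  · (try simp only [map_add, map_mul, map_pow, map_zero, map_one, hff, it39, it44, it46, it53, it60, it63, it65, it69, it70, it71, iw]) <;> linear_combination (0 : K) * h2
  · (try simp only [map_add, map_mul, map_pow, map_zero, map_one, hff, it39, it44, it46, it53, it60, it63, it65, it69, it70, it71, iw]) <;> linear_combination (0 : K) * h2
  · (try simp only [map_add, map_mul, map_pow, map_zero, map_one, hff, it39, it44, it46, it53, it60, it63, it65, it69, it70, it71, iw]) <;> linear_combination (0 : K) * h2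
  · (try simp only [map_add, map_mul, map_pow, map_zero, map_one, hff, it39, it44, it46, it53, it60, it63, it65, it69, it70, it71, iw]) <;> linear_combination (0 : K) * h2
  · (try simp only [map_add, map_mul, map_pow, map_zero, map_one, hff, it39, it44, it46, it53, it60, it63, it65, it69, it70, it71, iw]) <;> linear_combination (0 : K) * h2
  · (try simp only [map_add, map_mul, map_pow, map_zero, map_one, hff, it39, it44, it46, it53, it60, it63, it65, it69, it70, it71, iw]) <;> linear_combination (0 : K) * h2
  · (try simp only [map_add, map_mul, map_pow, map_zero, map_one, hff, it39, it44, it46, it53, it60, it63, it65, it69, it70, it71, iw]) <;> linear_combination (0 : K) * h2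
  · (try simp only [map_add, map_mul, map_pow, map_zero, map_one, hff, it39, it44, it46, it53, it60, it63, it65, it69, it70, it71, iw]) <;> linear_combination (0 : K) * h2
  · (try simp only [map_add, map_mul, map_pow, map_zero, map_one, hff, it39, it44, it46, it53, it60, it63, it65, it69, it70, it71, iw]) <;> linear_combination (0 : K) * h2
  · (try simp only [map_add, map_mul, map_pow, map_zero, map_one, hff, it39, it44, it46, it53, it60, it63, it65, it69, it70, it71, iw]) <;> linear_combination (0 : K) * h2
  · (try simp only [map_add, map_mul, map_pow, map_zero, map_one, hff, it39, it44, it46, it53, it60, it63, it65, it69, it70, it71, iw]) <;> linear_combination (0 : K) * h2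
  · (try simp only [map_add, map_mul, map_pow, map_zero, map_one, hff, it39, it44, it46, it53, it60, it63, it65, it69, it70, it71, iw]) <;> linear_combination (0 : K) * h2
  · (try simp only [map_add, map_mul, map_pow, map_zero, map_one, hff, it39, it44, it46, it53, it60, it63, it65, it69, it70, it71, iw]) <;> linear_combination (0 : K) * h2
  · (try simp only [map_add, map_mul, map_pow, map_zero, map_one, hff, it39, it44, it46, it53, it60, it63, it65, it69, it70, it71, iw]) <;> linear_combination (0 : K) * h2
  · (try simp only [map_add, map_mul, map_pow, map_zero, map_one, hff, it39, it44, it46, it53, it60, it63, it65, it69, it70, it71, iw]) <;> linear_combination (0 : K) * h2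
  · (try simp only [map_add, map_mul, map_pow, map_zero, map_one, hff, it39, it44, it46, it53, it60, it63, it65, it69, it70, it71, iw]) <;> linear_combination (-w*(f l36)) * h2
  · (try simp only [map_add, map_mul, map_pow, map_zero, map_one, hff, it39, it44, it46, it53, it60, it63, it65, it69, it70, it71, iw]) <;> linear_combination (-l36*w*(f l36)) * h2
  · (try simp only [map_add, map_mul, map_pow, map_zero, map_one, hff, it39, it44, it46, it53, it60, it63, it65, it69, it70, it71, iw]) <;> linear_combination (0 : K) * h2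
  · (try simp only [map_add, map_mul, map_pow, map_zero, map_one, hff, it39, it44, it46, it53, it60, it63, it65, it69, it70, it71, iw]) <;> linear_combination (0 : K) * h2
  · (try simp only [map_add, map_mul, map_pow, map_zero, map_one, hff, it39, it44, it46, it53, it60, it63, it65, it69, it70, it71, iw]) <;> linear_combination (-l36*t46*w*(f l36)) * h2
  · (try simp only [map_add, map_mul, map_pow, map_zero, map_one, hff, it39, it44, it46, it53, it60, it63, it65, it69, it70, it71, iw]) <;> linear_combination (0 : K) * h2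
  · (try simp only [map_add, map_mul, map_pow, map_zero, map_one, hff, it39, it44, it46, it53, it60, it63, it65, it69, it70, it71, iw]) <;> linear_combination (0 : K) * h2
  · (try simp only [map_add, map_mul, map_pow, map_zero, map_one, hff, it39, it44, it46, it53, it60, it63, it65, it69, it70, it71, iw]) <;> linear_combination (0 : K) * h2
  · (try simp only [map_add, map_mul, map_pow, map_zero, map_one, hff, it39, it44, it46, it53, it60, it63, it65, it69, it70, it71, iw]) <;> linear_combination (0 : K) * h2
  · (try simp only [map_add, map_mul, map_pow, map_zero, map_one, hff, it39, it44, it46, it53, it60, it63, it65, it69, it70, it71, iw]) <;> linear_combination (0 : K) * h2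
  · (try simp only [map_add, map_mul, map_pow, map_zero, map_one, hff, it39, it44, it46, it53, it60, it63, it65, it69, it70, it71, iw]) <;> linear_combination (-t63*w - l52*w*(f l36) - l36*t46*w^2*(f l36)) * h2
  · (try simp only [map_add, map_mul, map_pow, map_zero, map_one, hff, it39, it44, it46, it53, it60, it63, it65, it69, it70, it71, iw]) <;> linear_combination (-t65*w - l54*w*(f l36) - l36*t53*w*(f l36)) * h2
  · (try simp only [map_add, map_mul, map_pow, map_zero, map_one, hff, it39, it44, it46, it53, it60, it63, it65, it69, it70, it71, iw]) <;> linear_combination (-l36*t46*t53*w*(f l36)) * h2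

theorem st_LA_1_1_1_1 {l36 l37 l38 l40 l41 l45 l54 l55 l66 t39 t44 t46 t53 t60 t63 t65 t69 t70 t71 y : K} (hff : ∀ t, f (f t) = t) (it39 : f t39 = t39) (it44 : f t44 = t44) (it46 : f t46 = t46) (it53 : f t53 = t53) (it60 : f t60 = t60) (it63 : f t63 = t63) (it65 : f t65 = t65) (it69 : f t69 = t69) (it70 : f t70 = t70) (it71 : f t71 = t71) :
    E f 0 0 0 0 0 0 0 (y) 0 0 0 0 0 0 0 0 0 0 0 0 0 0 0 0 * E f (l36) (l37) (l38) (t39) (l40) (l41) (t44) (l45) (t46) 0 0 0 0 ((t46) * y) (t53) (l54) (l55) (t60) (t63) (t65) (l66) (t69) (t70) (t71) = E f (l36) (l37) (l38) (t39) (l40) (l41) (t44) (l45) (t46) 0 0 0 0 0 (t53) (l54) (l55) (t60 + l36*(f y) + y*(f l36)) (t63 + l36*t46*(f y) + t46*y*(f l36)) (t65) (l66) (t69 + t46*y*(f y)) (t70 + l54*(f y) + y*(f l54) + l36*t53*(f y) + t53*y*(f l36)) (t71 + l36*t46*t53*(f y) + t46*t53*y*(f l36)) * E f 0 0 0 0 0 0 0 (y) 0 0 0 0 0 0 0 0 0 0 0 0 0 0 0 0 := by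
  have h2 : (2 : K) = 0 := CharTwo.two_eq_zero
  unfold E
  rw [W_mul, W_mul]
  apply W_congr
  · (try simp only [map_add, map_mul, map_pow, map_zero, map_one, hff, it39, it44, it46, it53, it60, it63, it65, it69, it70, it71]) <;> linear_combination (0 : K) * h2
  · (try simp only [map_add, map_mul, map_pow, map_zero, map_one, hff, it39, it44, it46, it53, it60, it63, it65, it69, it70, it71]) <;> linear_combination (0 : K) * h2
  · (try simp only [map_add, map_mul, map_pow, map_zero, map_one, hff, it39, it44, it46, it53, it60, it63, it65, it69, it70, it71]) <;> linear_combination (0 : K) * h2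
  · (try simp only [map_add, map_mul, map_pow, map_zero, map_one, hff, it39, it44, it46, it53, it60, it63, it65, it69, it70, it71]) <;> linear_combination (0 : K) * h2
  · (try simp only [map_add, map_mul, map_pow, map_zero, map_one, hff, it39, it44, it46, it53, it60, it63, it65, it69, it70, it71]) <;> linear_combination (0 : K) * h2
  · (try simp only [map_add, map_mul, map_pow, map_zero, map_one, hff, it39, it44, it46, it53, it60, it63, it65, it69, it70, it71]) <;> linear_combination (0 : K) * h2
  · (try simp only [map_add, map_mul, map_pow, map_zero, map_one, hff, it39, it44, it46, it53, it60, it63, it65, it69, it70, it71]) <;> linear_combination (0 : K) * h2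
  · (try simp only [map_add, map_mul, map_pow, map_zero, map_one, hff, it39, it44, it46, it53, it60, it63, it65, it69, it70, it71]) <;> linear_combination (0 : K) * h2
  · (try simp only [map_add, map_mul, map_pow, map_zero, map_one, hff, it39, it44, it46, it53, it60, it63, it65, it69, it70, it71]) <;> linear_combination (0 : K) * h2
  · (try simp only [map_add, map_mul, map_pow, map_zero, map_one, hff, it39, it44, it46, it53, it60, it63, it65, it69, it70, it71]) <;> linear_combination (0 : K) * h2
  · (try simp only [map_add, map_mul, map_pow, map_zero, map_one, hff, it39, it44, it46, it53, it60, it63, it65, it69, it70, it71]) <;> linear_combination (0 : K) * h2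
  · (try simp only [map_add, map_mul, map_pow, map_zero, map_one, hff, it39, it44, it46, it53, it60, it63, it65, it69, it70, it71]) <;> linear_combination (0 : K) * h2
  · (try simp only [map_add, map_mul, map_pow, map_zero, map_one, hff, it39, it44, it46, it53, it60, it63, it65, it69, it70, it71]) <;> linear_combination (0 : K) * h2
  · (try simp only [map_add, map_mul, map_pow, map_zero, map_one, hff, it39, it44, it46, it53, it60, it63, it65, it69, it70, it71]) <;> linear_combination (0 : K) * h2
  · (try simp only [map_add, map_mul, map_pow, map_zero, map_one, hff, it39, it44, it46, it53, it60, it63, it65, it69, it70, it71]) <;> linear_combination (0 : K) * h2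
  · (try simp only [map_add, map_mul, map_pow, map_zero, map_one, hff, it39, it44, it46, it53, it60, it63, it65, it69, it70, it71]) <;> linear_combination (0 : K) * h2
  · (try simp only [map_add, map_mul, map_pow, map_zero, map_one, hff, it39, it44, it46, it53, it60, it63, it65, it69, it70, it71]) <;> linear_combination (0 : K) * h2
  · (try simp only [map_add, map_mul, map_pow, map_zero, map_one, hff, it39, it44, it46, it53, it60, it63, it65, it69, it70, it71]) <;> linear_combination (0 : K) * h2
  · (try simp only [map_add, map_mul, map_pow, map_zero, map_one, hff, it39, it44, it46, it53, it60, it63, it65, it69, it70, it71]) <;> linear_combination (0 : K) * h2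
  · (try simp only [map_add, map_mul, map_pow, map_zero, map_one, hff, it39, it44, it46, it53, it60, it63, it65, it69, it70, it71]) <;> linear_combination (0 : K) * h2
  · (try simp only [map_add, map_mul, map_pow, map_zero, map_one, hff, it39, it44, it46, it53, it60, it63, it65, it69, it70, it71]) <;> linear_combination (0 : K) * h2
  · (try simp only [map_add, map_mul, map_pow, map_zero, map_one, hff, it39, it44, it46, it53, it60, it63, it65, it69, it70, it71]) <;> linear_combination (0 : K) * h2
  · (try simp only [map_add, map_mul, map_pow, map_zero, map_one, hff, it39, it44, it46, it53, it60, it63, it65, it69, it70, it71]) <;> linear_combination (0 : K) * h2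
  · (try simp only [map_add, map_mul, map_pow, map_zero, map_one, hff, it39, it44, it46, it53, it60, it63, it65, it69, it70, it71]) <;> linear_combination (0 : K) * h2
  · (try simp only [map_add, map_mul, map_pow, map_zero, map_one, hff, it39, it44, it46, it53, it60, it63, it65, it69, it70, it71]) <;> linear_combination (-y*(f l36)) * h2
  · (try simp only [map_add, map_mul, map_pow, map_zero, map_one, hff, it39, it44, it46, it53, it60, it63, it65, it69, it70, it71]) <;> linear_combination (0 : K) * h2
  · (try simp only [map_add, map_mul, map_pow, map_zero, map_one, hff, it39, it44, it46, it53, it60, it63, it65, it69, it70, it71]) <;> linear_combination (t46*(f y)) * h2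
  · (try simp only [map_add, map_mul, map_pow, map_zero, map_one, hff, it39, it44, it46, it53, it60, it63, it65, it69, it70, it71]) <;> linear_combination (0 : K) * h2
  · (try simp only [map_add, map_mul, map_pow, map_zero, map_one, hff, it39, it44, it46, it53, it60, it63, it65, it69, it70, it71]) <;> linear_combination (0 : K) * h2
  · (try simp only [map_add, map_mul, map_pow, map_zero, map_one, hff, it39, it44, it46, it53, it60, it63, it65, it69, it70, it71]) <;> linear_combination (0 : K) * h2
  · (try simp only [map_add, map_mul, map_pow, map_zero, map_one, hff, it39, it44, it46, it53, it60, it63, it65, it69, it70, it71]) <;> linear_combination (0 : K) * h2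
  · (try simp only [map_add, map_mul, map_pow, map_zero, map_one, hff, it39, it44, it46, it53, it60, it63, it65, it69, it70, it71]) <;> linear_combination (0 : K) * h2
  · (try simp only [map_add, map_mul, map_pow, map_zero, map_one, hff, it39, it44, it46, it53, it60, it63, it65, it69, it70, it71]) <;> linear_combination (0 : K) * h2
  · (try simp only [map_add, map_mul, map_pow, map_zero, map_one, hff, it39, it44, it46, it53, it60, it63, it65, it69, it70, it71]) <;> linear_combination (0 : K) * h2
  · (try simp only [map_add, map_mul, map_pow, map_zero, map_one, hff, it39, it44, it46, it53, it60, it63, it65, it69, it70, it71]) <;> linear_combination (-y*(f l54) - t53*y*(f l36)) * h2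
  · (try simp only [map_add, map_mul, map_pow, map_zero, map_one, hff, it39, it44, it46, it53, it60, it63, it65, it69, it70, it71]) <;> linear_combination (l54*t46*(f y)) * h2

theorem st_LA_1_1_1_1_1 {l36 l37 l38 l40 l41 l45 l54 l55 l66 t39 t44 t46 t53 t60 t65 t69 t70 t71 w : K} (hff : ∀ t, f (f t) = t) (it39 : f t39 = t39) (it44 : f t44 = t44) (it46 : f t46 = t46) (it53 : f t53 = t53) (it60 : f t60 = t60) (it65 : f t65 = t65) (it69 : f t69 = t69) (it70 : f t70 = t70) (it71 : f t71 = t71) (iw : f w = w) :
    E f 0 0 0 0 0 0 0 0 0 0 0 0 0 0 0 0 0 (w) 0 0 0 0 0 0 * E f (l36) (l37) (l38) (t39) (l40) (l41) (t44) (l45) (t46) 0 0 0 0 0 (t53) (l54) (l55) (t60) ((t46) * w) (t65) (l66) (t69) (t70) (t71) = E f (l36) (l37) (l38) (t39) (l40) (l41) (t44) (l45) (t46) 0 0 0 0 0 (t53) (l54) (l55) (t60) 0 (t65) (l66) (t69) (t70 + t53*w) (t71 + t46*t53*w) * E f 0 0 0 0 0 0 0 0 0 0 0 0 0 0 0 0 0 (w) 0 0 0 0 0 0 := by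
  have h2 : (2 : K) = 0 := CharTwo.two_eq_zero
  unfold E
  rw [W_mul, W_mul]
  apply W_congr
  · (try simp only [map_add, map_mul, map_pow, map_zero, map_one, hff, it39, it44, it46, it53, it60, it65, it69, it70, it71, iw]) <;> linear_combination (0 : K) * h2
  · (try simp only [map_add, map_mul, map_pow, map_zero, map_one, hff, it39, it44, it46, it53, it60, it65, it69, it70, it71, iw]) <;> linear_combination (0 : K) * h2
  · (try simp only [map_add, map_mul, map_pow, map_zero, map_one, hff, it39, it44, it46, it53, it60, it65, it69, it70, it71, iw]) <;> linear_combination (0 : K) * h2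
  · (try simp only [map_add, map_mul, map_pow, map_zero, map_one, hff, it39, it44, it46, it53, it60, it65, it69, it70, it71, iw]) <;> linear_combination (0 : K) * h2
  · (try simp only [map_add, map_mul, map_pow, map_zero, map_one, hff, it39, it44, it46, it53, it60, it65, it69, it70, it71, iw]) <;> linear_combination (0 : K) * h2
  · (try simp only [map_add, map_mul, map_pow, map_zero, map_one, hff, it39, it44, it46, it53, it60, it65, it69, it70, it71, iw]) <;> linear_combination (0 : K) * h2
  · (try simp only [map_add, map_mul, map_pow, map_zero, map_one, hff, it39, it44, it46, it53, it60, it65, it69, it70, it71, iw]) <;> linear_combination (0 : K) * h2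
  · (try simp only [map_add, map_mul, map_pow, map_zero, map_one, hff, it39, it44, it46, it53, it60, it65, it69, it70, it71, iw]) <;> linear_combination (0 : K) * h2
  · (try simp only [map_add, map_mul, map_pow, map_zero, map_one, hff, it39, it44, it46, it53, it60, it65, it69, it70, it71, iw]) <;> linear_combination (0 : K) * h2
  · (try simp only [map_add, map_mul, map_pow, map_zero, map_one, hff, it39, it44, it46, it53, it60, it65, it69, it70, it71, iw]) <;> linear_combination (0 : K) * h2
  · (try simp only [map_add, map_mul, map_pow, map_zero, map_one, hff, it39, it44, it46, it53, it60, it65, it69, it70, it71, iw]) <;> linear_combination (0 : K) * h2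
  · (try simp only [map_add, map_mul, map_pow, map_zero, map_one, hff, it39, it44, it46, it53, it60, it65, it69, it70, it71, iw]) <;> linear_combination (0 : K) * h2
  · (try simp only [map_add, map_mul, map_pow, map_zero, map_one, hff, it39, it44, it46, it53, it60, it65, it69, it70, it71, iw]) <;> linear_combination (0 : K) * h2
  · (try simp only [map_add, map_mul, map_pow, map_zero, map_one, hff, it39, it44, it46, it53, it60, it65, it69, it70, it71, iw]) <;> linear_combination (0 : K) * h2
  · (try simp only [map_add, map_mul, map_pow, map_zero, map_one, hff, it39, it44, it46, it53, it60, it65, it69, it70, it71, iw]) <;> linear_combination (0 : K) * h2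
  · (try simp only [map_add, map_mul, map_pow, map_zero, map_one, hff, it39, it44, it46, it53, it60, it65, it69, it70, it71, iw]) <;> linear_combination (0 : K) * h2
  · (try simp only [map_add, map_mul, map_pow, map_zero, map_one, hff, it39, it44, it46, it53, it60, it65, it69, it70, it71, iw]) <;> linear_combination (0 : K) * h2
  · (try simp only [map_add, map_mul, map_pow, map_zero, map_one, hff, it39, it44, it46, it53, it60, it65, it69, it70, it71, iw]) <;> linear_combination (0 : K) * h2
  · (try simp only [map_add, map_mul, map_pow, map_zero, map_one, hff, it39, it44, it46, it53, it60, it65, it69, it70, it71, iw]) <;> linear_combination (0 : K) * h2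
  · (try simp only [map_add, map_mul, map_pow, map_zero, map_one, hff, it39, it44, it46, it53, it60, it65, it69, it70, it71, iw]) <;> linear_combination (0 : K) * h2
  · (try simp only [map_add, map_mul, map_pow, map_zero, map_one, hff, it39, it44, it46, it53, it60, it65, it69, it70, it71, iw]) <;> linear_combination (0 : K) * h2
  · (try simp only [map_add, map_mul, map_pow, map_zero, map_one, hff, it39, it44, it46, it53, it60, it65, it69, it70, it71, iw]) <;> linear_combination (0 : K) * h2
  · (try simp only [map_add, map_mul, map_pow, map_zero, map_one, hff, it39, it44, it46, it53, it60, it65, it69, it70, it71, iw]) <;> linear_combination (0 : K) * h2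
  · (try simp only [map_add, map_mul, map_pow, map_zero, map_one, hff, it39, it44, it46, it53, it60, it65, it69, it70, it71, iw]) <;> linear_combination (0 : K) * h2
  · (try simp only [map_add, map_mul, map_pow, map_zero, map_one, hff, it39, it44, it46, it53, it60, it65, it69, it70, it71, iw]) <;> linear_combination (0 : K) * h2
  · (try simp only [map_add, map_mul, map_pow, map_zero, map_one, hff, it39, it44, it46, it53, it60, it65, it69, it70, it71, iw]) <;> linear_combination (0 : K) * h2
  · (try simp only [map_add, map_mul, map_pow, map_zero, map_one, hff, it39, it44, it46, it53, it60, it65, it69, it70, it71, iw]) <;> linear_combination (0 : K) * h2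
  · (try simp only [map_add, map_mul, map_pow, map_zero, map_one, hff, it39, it44, it46, it53, it60, it65, it69, it70, it71, iw]) <;> linear_combination (t46*w) * h2
  · (try simp only [map_add, map_mul, map_pow, map_zero, map_one, hff, it39, it44, it46, it53, it60, it65, it69, it70, it71, iw]) <;> linear_combination (0 : K) * h2
  · (try simp only [map_add, map_mul, map_pow, map_zero, map_one, hff, it39, it44, it46, it53, it60, it65, it69, it70, it71, iw]) <;> linear_combination (0 : K) * h2
  · (try simp only [map_add, map_mul, map_pow, map_zero, map_one, hff, it39, it44, it46, it53, it60, it65, it69, it70, it71, iw]) <;> linear_combination (0 : K) * h2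
  · (try simp only [map_add, map_mul, map_pow, map_zero, map_one, hff, it39, it44, it46, it53, it60, it65, it69, it70, it71, iw]) <;> linear_combination (0 : K) * h2
  · (try simp only [map_add, map_mul, map_pow, map_zero, map_one, hff, it39, it44, it46, it53, it60, it65, it69, it70, it71, iw]) <;> linear_combination (0 : K) * h2
  · (try simp only [map_add, map_mul, map_pow, map_zero, map_one, hff, it39, it44, it46, it53, it60, it65, it69, it70, it71, iw]) <;> linear_combination (0 : K) * h2
  · (try simp only [map_add, map_mul, map_pow, map_zero, map_one, hff, it39, it44, it46, it53, it60, it65, it69, it70, it71, iw]) <;> linear_combination (0 : K) * h2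
  · (try simp only [map_add, map_mul, map_pow, map_zero, map_one, hff, it39, it44, it46, it53, it60, it65, it69, it70, it71, iw]) <;> linear_combination (0 : K) * h2

theorem st_LA_1_1_1_1_1_1 {l36 l37 l38 l40 l41 l45 l54 l55 l66 t39 t44 t46 t53 t60 t65 t69 t70 w : K} (hff : ∀ t, f (f t) = t) (it39 : f t39 = t39) (it44 : f t44 = t44) (it46 : f t46 = t46) (it53 : f t53 = t53) (it60 : f t60 = t60) (it65 : f t65 = t65) (it69 : f t69 = t69) (it70 : f t70 = t70) (iw : f w = w) :
    E f 0 0 0 0 0 0 0 0 0 0 0 0 0 0 0 0 0 0 0 0 0 0 (w) 0 * E f (l36) (l37) (l38) (t39) (l40) (l41) (t44) (l45) (t46) 0 0 0 0 0 (t53) (l54) (l55) (t60) 0 (t65) (l66) (t69) (t70) ((t46) * w) = E f (l36) (l37) (l38) (t39) (l40) (l41) (t44) (l45) (t46) 0 0 0 0 0 (t53) (l54) (l55) (t60) 0 (t65) (l66) (t69) (t70) 0 * E f 0 0 0 0 0 0 0 0 0 0 0 0 0 0 0 0 0 0 0 0 0 0 (w) 0 := by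
  have h2 : (2 : K) = 0 := CharTwo.two_eq_zero
  unfold E
  rw [W_mul, W_mul]
  apply W_congr
  · (try simp only [map_add, map_mul, map_pow, map_zero, map_one, hff, it39, it44, it46, it53, it60, it65, it69, it70, iw]) <;> linear_combination (0 : K) * h2
  · (try simp only [map_add, map_mul, map_pow, map_zero, map_one, hff, it39, it44, it46, it53, it60, it65, it69, it70, iw]) <;> linear_combination (0 : K) * h2
  · (try simp only [map_add, map_mul, map_pow, map_zero, map_one, hff, it39, it44, it46, it53, it60, it65, it69, it70, iw]) <;> linear_combination (0 : K) * h2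
  · (try simp only [map_add, map_mul, map_pow, map_zero, map_one, hff, it39, it44, it46, it53, it60, it65, it69, it70, iw]) <;> linear_combination (0 : K) * h2
  · (try simp only [map_add, map_mul, map_pow, map_zero, map_one, hff, it39, it44, it46, it53, it60, it65, it69, it70, iw]) <;> linear_combination (0 : K) * h2
  · (try simp only [map_add, map_mul, map_pow, map_zero, map_one, hff, it39, it44, it46, it53, it60, it65, it69, it70, iw]) <;> linear_combination (0 : K) * h2
  · (try simp only [map_add, map_mul, map_pow, map_zero, map_one, hff, it39, it44, it46, it53, it60, it65, it69, it70, iw]) <;> linear_combination (0 : K) * h2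
  · (try simp only [map_add, map_mul, map_pow, map_zero, map_one, hff, it39, it44, it46, it53, it60, it65, it69, it70, iw]) <;> linear_combination (0 : K) * h2
  · (try simp only [map_add, map_mul, map_pow, map_zero, map_one, hff, it39, it44, it46, it53, it60, it65, it69, it70, iw]) <;> linear_combination (0 : K) * h2
  · (try simp only [map_add, map_mul, map_pow, map_zero, map_one, hff, it39, it44, it46, it53, it60, it65, it69, it70, iw]) <;> linear_combination (0 : K) * h2
  · (try simp only [map_add, map_mul, map_pow, map_zero, map_one, hff, it39, it44, it46, it53, it60, it65, it69, it70, iw]) <;> linear_combination (0 : K) * h2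
  · (try simp only [map_add, map_mul, map_pow, map_zero, map_one, hff, it39, it44, it46, it53, it60, it65, it69, it70, iw]) <;> linear_combination (0 : K) * h2
  · (try simp only [map_add, map_mul, map_pow, map_zero, map_one, hff, it39, it44, it46, it53, it60, it65, it69, it70, iw]) <;> linear_combination (0 : K) * h2
  · (try simp only [map_add, map_mul, map_pow, map_zero, map_one, hff, it39, it44, it46, it53, it60, it65, it69, it70, iw]) <;> linear_combination (0 : K) * h2
  · (try simp only [map_add, map_mul, map_pow, map_zero, map_one, hff, it39, it44, it46, it53, it60, it65, it69, it70, iw]) <;> linear_combination (0 : K) * h2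
  · (try simp only [map_add, map_mul, map_pow, map_zero, map_one, hff, it39, it44, it46, it53, it60, it65, it69, it70, iw]) <;> linear_combination (0 : K) * h2
  · (try simp only [map_add, map_mul, map_pow, map_zero, map_one, hff, it39, it44, it46, it53, it60, it65, it69, it70, iw]) <;> linear_combination (0 : K) * h2
  · (try simp only [map_add, map_mul, map_pow, map_zero, map_one, hff, it39, it44, it46, it53, it60, it65, it69, it70, iw]) <;> linear_combination (0 : K) * h2
  · (try simp only [map_add, map_mul, map_pow, map_zero, map_one, hff, it39, it44, it46, it53, it60, it65, it69, it70, iw]) <;> linear_combination (0 : K) * h2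
  · (try simp only [map_add, map_mul, map_pow, map_zero, map_one, hff, it39, it44, it46, it53, it60, it65, it69, it70, iw]) <;> linear_combination (0 : K) * h2
  · (try simp only [map_add, map_mul, map_pow, map_zero, map_one, hff, it39, it44, it46, it53, it60, it65, it69, it70, iw]) <;> linear_combination (0 : K) * h2
  · (try simp only [map_add, map_mul, map_pow, map_zero, map_one, hff, it39, it44, it46, it53, it60, it65, it69, it70, iw]) <;> linear_combination (0 : K) * h2
  · (try simp only [map_add, map_mul, map_pow, map_zero, map_one, hff, it39, it44, it46, it53, it60, it65, it69, it70, iw]) <;> linear_combination (0 : K) * h2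
  · (try simp only [map_add, map_mul, map_pow, map_zero, map_one, hff, it39, it44, it46, it53, it60, it65, it69, it70, iw]) <;> linear_combination (0 : K) * h2
  · (try simp only [map_add, map_mul, map_pow, map_zero, map_one, hff, it39, it44, it46, it53, it60, it65, it69, it70, iw]) <;> linear_combination (0 : K) * h2
  · (try simp only [map_add, map_mul, map_pow, map_zero, map_one, hff, it39, it44, it46, it53, it60, it65, it69, it70, iw]) <;> linear_combination (0 : K) * h2
  · (try simp only [map_add, map_mul, map_pow, map_zero, map_one, hff, it39, it44, it46, it53, it60, it65, it69, it70, iw]) <;> linear_combination (0 : K) * h2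
  · (try simp only [map_add, map_mul, map_pow, map_zero, map_one, hff, it39, it44, it46, it53, it60, it65, it69, it70, iw]) <;> linear_combination (0 : K) * h2
  · (try simp only [map_add, map_mul, map_pow, map_zero, map_one, hff, it39, it44, it46, it53, it60, it65, it69, it70, iw]) <;> linear_combination (0 : K) * h2
  · (try simp only [map_add, map_mul, map_pow, map_zero, map_one, hff, it39, it44, it46, it53, it60, it65, it69, it70, iw]) <;> linear_combination (0 : K) * h2
  · (try simp only [map_add, map_mul, map_pow, map_zero, map_one, hff, it39, it44, it46, it53, it60, it65, it69, it70, iw]) <;> linear_combination (0 : K) * h2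
  · (try simp only [map_add, map_mul, map_pow, map_zero, map_one, hff, it39, it44, it46, it53, it60, it65, it69, it70, iw]) <;> linear_combination (0 : K) * h2
  · (try simp only [map_add, map_mul, map_pow, map_zero, map_one, hff, it39, it44, it46, it53, it60, it65, it69, it70, iw]) <;> linear_combination (0 : K) * h2
  · (try simp only [map_add, map_mul, map_pow, map_zero, map_one, hff, it39, it44, it46, it53, it60, it65, it69, it70, iw]) <;> linear_combination (0 : K) * h2
  · (try simp only [map_add, map_mul, map_pow, map_zero, map_one, hff, it39, it44, it46, it53, it60, it65, it69, it70, iw]) <;> linear_combination (0 : K) * h2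
  · (try simp only [map_add, map_mul, map_pow, map_zero, map_one, hff, it39, it44, it46, it53, it60, it65, it69, it70, iw]) <;> linear_combination (t46*w) * h2

theorem nE_LA_1_1_1_1_1_1_1_1_1_1_1_1_1_1 {l36 l37 l38 l54 l55 l66 t46 t53 t65 t69 : K} (hff : ∀ t, f (f t) = t) (it46 : f t46 = t46) (it53 : f t53 = t53) (it65 : f t65 = t65) (it69 : f t69 = t69) :
    nR [0, 1, 2, 3, 1, 2, 1] * E f (l36) (l37) (l38) 0 0 0 0 0 (t46) 0 0 0 0 0 (t53) (l54) (l55) 0 0 (t65) (l66) (t69) 0 0 * (nR [0, 1, 2, 3, 1, 2, 1])⁻¹ = E f ((f l37)) ((f l36)) ((f l38) + (f l36)*(f l37)) (t53) ((f l54)) ((f l55)) (t65) ((f l66)) 0 0 0 0 0 0 0 0 0 (t69) 0 0 0 0 0 (t46) := by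
  have h2 : (2 : K) = 0 := CharTwo.two_eq_zero
  have c36 := fun t : K => nR_at (l := [0, 1, 2, 3, 1, 2, 1]) (s := 36) (m := 42) (by decide +kernel) t
  have c37 := fun t : K => nR_at (l := [0, 1, 2, 3, 1, 2, 1]) (s := 37) (m := 56) (by decide +kernel) t
  have c38 := fun t : K => nR_at (l := [0, 1, 2, 3, 1, 2, 1]) (s := 38) (m := 57) (by decide +kernel) t
  have c42 := fun t : K => nR_at (l := [0, 1, 2, 3, 1, 2, 1]) (s := 42) (m := 36) (by decide +kernel) t
  have c46 := fun t : K => nR_at (l := [0, 1, 2, 3, 1, 2, 1]) (s := 46) (m := 71) (by decide +kernel) t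
  have c53 := fun t : K => nR_at (l := [0, 1, 2, 3, 1, 2, 1]) (s := 53) (m := 39) (by decide +kernel) t
  have c54 := fun t : K => nR_at (l := [0, 1, 2, 3, 1, 2, 1]) (s := 54) (m := 43) (by decide +kernel) t
  have c55 := fun t : K => nR_at (l := [0, 1, 2, 3, 1, 2, 1]) (s := 55) (m := 58) (by decide +kernel) t
  have c56 := fun t : K => nR_at (l := [0, 1, 2, 3, 1, 2, 1]) (s := 56) (m := 37) (by decide +kernel) t
  have c57 := fun t : K => nR_at (l := [0, 1, 2, 3, 1, 2, 1]) (s := 57) (m := 38) (by decide +kernel) t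
  have c64 := fun t : K => nR_at (l := [0, 1, 2, 3, 1, 2, 1]) (s := 64) (m := 40) (by decide +kernel) t
  have c65 := fun t : K => nR_at (l := [0, 1, 2, 3, 1, 2, 1]) (s := 65) (m := 44) (by decide +kernel) t
  have c66 := fun t : K => nR_at (l := [0, 1, 2, 3, 1, 2, 1]) (s := 66) (m := 59) (by decide +kernel) t
  have c67 := fun t : K => nR_at (l := [0, 1, 2, 3, 1, 2, 1]) (s := 67) (m := 41) (by decide +kernel) t
  have c68 := fun t : K => nR_at (l := [0, 1, 2, 3, 1, 2, 1]) (s := 68) (m := 45) (by decide +kernel) t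
  have c69 := fun t : K => nR_at (l := [0, 1, 2, 3, 1, 2, 1]) (s := 69) (m := 60) (by decide +kernel) t
  unfold E
  rw [conj_W]
  simp only [map_zero, zero_mul, mul_zero, add_zero, zero_add, conj_x0, one_mul, c36, c37, c38, c42, c46, c53, c54, c55, c56, c57, c64, c65, c66, c67, c68, c69]
  rw [← W_zero (K := K)]
  simp only [xW_36, xW_37, xW_38, xW_39, xW_40, xW_41, xW_42, xW_43, xW_44, xW_45, xW_56, xW_57, xW_58, xW_59, xW_60, xW_71, zero_mul, mul_zero, add_zero, zero_add]
  first
    | done
    | apply W_congr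
      · (try simp only [map_add, map_mul, map_pow, map_zero, map_one, hff, it46, it53, it65, it69]) <;> linear_combination (0 : K) * h2
      · (try simp only [map_add, map_mul, map_pow, map_zero, map_one, hff, it46, it53, it65, it69]) <;> linear_combination (0 : K) * h2
      · (try simp only [map_add, map_mul, map_pow, map_zero, map_one, hff, it46, it53, it65, it69]) <;> linear_combination (0 : K) * h2
      · (try simp only [map_add, map_mul, map_pow, map_zero, map_one, hff, it46, it53, it65, it69]) <;> linear_combination (0 : K) * h2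
      · (try simp only [map_add, map_mul, map_pow, map_zero, map_one, hff, it46, it53, it65, it69]) <;> linear_combination (t53*(f l36)) * h2
      · (try simp only [map_add, map_mul, map_pow, map_zero, map_one, hff, it46, it53, it65, it69]) <;> linear_combination (t53*(f l38) + t53*(f l36)*(f l37)) * h2
      · (try simp only [map_add, map_mul, map_pow, map_zero, map_one, hff, it46, it53, it65, it69]) <;> linear_combination (0 : K) * h2
      · (try simp only [map_add, map_mul, map_pow, map_zero, map_one, hff, it46, it53, it65, it69]) <;> linear_combination (0 : K) * h2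
      · (try simp only [map_add, map_mul, map_pow, map_zero, map_one, hff, it46, it53, it65, it69]) <;> linear_combination (l54*(f l36) + l36*t53*(f l36)) * h2
      · (try simp only [map_add, map_mul, map_pow, map_zero, map_one, hff, it46, it53, it65, it69]) <;> linear_combination (l54*(f l38) + l36*t53*(f l38) + l54*(f l36)*(f l37) + l36*t53*(f l36)*(f l37)) * h2
      · (try simp only [map_add, map_mul, map_pow, map_zero, map_one, hff, it46, it53, it65, it69]) <;> linear_combination (0 : K) * h2
      · (try simp only [map_add, map_mul, map_pow, map_zero, map_one, hff, it46, it53, it65, it69]) <;> linear_combination (0 : K) * h2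
      · (try simp only [map_add, map_mul, map_pow, map_zero, map_one, hff, it46, it53, it65, it69]) <;> linear_combination (0 : K) * h2
      · (try simp only [map_add, map_mul, map_pow, map_zero, map_one, hff, it46, it53, it65, it69]) <;> linear_combination (0 : K) * h2
      · (try simp only [map_add, map_mul, map_pow, map_zero, map_one, hff, it46, it53, it65, it69]) <;> linear_combination (0 : K) * h2
      · (try simp only [map_add, map_mul, map_pow, map_zero, map_one, hff, it46, it53, it65, it69]) <;> linear_combination (0 : K) * h2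
      · (try simp only [map_add, map_mul, map_pow, map_zero, map_one, hff, it46, it53, it65, it69]) <;> linear_combination (0 : K) * h2
      · (try simp only [map_add, map_mul, map_pow, map_zero, map_one, hff, it46, it53, it65, it69]) <;> linear_combination (0 : K) * h2
      · (try simp only [map_add, map_mul, map_pow, map_zero, map_one, hff, it46, it53, it65, it69]) <;> linear_combination (0 : K) * h2
      · (try simp only [map_add, map_mul, map_pow, map_zero, map_one, hff, it46, it53, it65, it69]) <;> linear_combination (0 : K) * h2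
      · (try simp only [map_add, map_mul, map_pow, map_zero, map_one, hff, it46, it53, it65, it69]) <;> linear_combination (0 : K) * h2
      · (try simp only [map_add, map_mul, map_pow, map_zero, map_one, hff, it46, it53, it65, it69]) <;> linear_combination (-l36*l37) * h2
      · (try simp only [map_add, map_mul, map_pow, map_zero, map_one, hff, it46, it53, it65, it69]) <;> linear_combination (-l36*l37*t53) * h2
      · (try simp only [map_add, map_mul, map_pow, map_zero, map_one, hff, it46, it53, it65, it69]) <;> linear_combination (l55*(f l36) - l36*l37*(f l54) + l37*l54*(f l36) + l38*t53*(f l36)) * h2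
      · (try simp only [map_add, map_mul, map_pow, map_zero, map_one, hff, it46, it53, it65, it69]) <;> linear_combination (l55*(f l38) - l36*l37*(f l55) + l37*l54*(f l38) + l38*t53*(f l38) + l55*(f l36)*(f l37) + l37*l54*(f l36)*(f l37) + l38*t53*(f l36)*(f l37)) * h2
      · (try simp only [map_add, map_mul, map_pow, map_zero, map_one, hff, it46, it53, it65, it69]) <;> linear_combination (0 : K) * h2
      · (try simp only [map_add, map_mul, map_pow, map_zero, map_one, hff, it46, it53, it65, it69]) <;> linear_combination (0 : K) * h2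
      · (try simp only [map_add, map_mul, map_pow, map_zero, map_one, hff, it46, it53, it65, it69]) <;> linear_combination (0 : K) * h2
      · (try simp only [map_add, map_mul, map_pow, map_zero, map_one, hff, it46, it53, it65, it69]) <;> linear_combination (0 : K) * h2
      · (try simp only [map_add, map_mul, map_pow, map_zero, map_one, hff, it46, it53, it65, it69]) <;> linear_combination (0 : K) * h2
      · (try simp only [map_add, map_mul, map_pow, map_zero, map_one, hff, it46, it53, it65, it69]) <;> linear_combination (0 : K) * h2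
      · (try simp only [map_add, map_mul, map_pow, map_zero, map_one, hff, it46, it53, it65, it69]) <;> linear_combination (0 : K) * h2
      · (try simp only [map_add, map_mul, map_pow, map_zero, map_one, hff, it46, it53, it65, it69]) <;> linear_combination (0 : K) * h2
      · (try simp only [map_add, map_mul, map_pow, map_zero, map_one, hff, it46, it53, it65, it69]) <;> linear_combination (0 : K) * h2
      · (try simp only [map_add, map_mul, map_pow, map_zero, map_one, hff, it46, it53, it65, it69]) <;> linear_combination (0 : K) * h2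
      · (try simp only [map_add, map_mul, map_pow, map_zero, map_one, hff, it46, it53, it65, it69]) <;> linear_combination (0 : K) * h2

theorem LA_1_1_1_1_1_1_1_1_1_1_1_1_1_1_1 {l36 l37 l38 l40 l41 l45 t39 t44 t60 t71 : K} (d : Dt f) (hp71 : t71 ≠ 0) (hm : E f (l36) (l37) (l38) (t39) (l40) (l41) (t44) (l45) 0 0 0 0 0 0 0 0 0 (t60) 0 0 0 0 0 (t71) ∈ (sc f).G1) (hs : E f (l36) (l37) (l38) (t39) (l40) (l41) (t44) (l45) 0 0 0 0 0 0 0 0 0 (t60) 0 0 0 0 0 (t71) * E f (l36) (l37) (l38) (t39) (l40) (l41) (t44) (l45) 0 0 0 0 0 0 0 0 0 (t60) 0 0 0 0 0 (t71) = 1) : Res f (E f (l36) (l37) (l38) (t39) (l40) (l41) (t44) (l45) 0 0 0 0 0 0 0 0 0 (t60) 0 0 0 0 0 (t71)) := by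
  exact F1 d hp71 hm hs

theorem LA_1_1_1_1_1_1_1_1_1_1_1_1_1_1 {l36 l37 l38 l54 l55 l66 t46 t53 t65 t69 : K} (d : Dt f) (hp46 : t46 ≠ 0) (hm : E f (l36) (l37) (l38) 0 0 0 0 0 (t46) 0 0 0 0 0 (t53) (l54) (l55) 0 0 (t65) (l66) (t69) 0 0 ∈ (sc f).G1) (hs : E f (l36) (l37) (l38) 0 0 0 0 0 (t46) 0 0 0 0 0 (t53) (l54) (l55) 0 0 (t65) (l66) (t69) 0 0 * E f (l36) (l37) (l38) 0 0 0 0 0 (t46) 0 0 0 0 0 (t53) (l54) (l55) 0 0 (t65) (l66) (t69) 0 0 = 1) : Res f (E f (l36) (l37) (l38) 0 0 0 0 0 (t46) 0 0 0 0 0 (t53) (l54) (l55) 0 0 (t65) (l66) (t69) 0 0) := by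
  obtain ⟨it39, it44, it46, it47, it51, it53, it60, it63, it65, it69, it70, it71⟩ := inv_of_mem d hm
  have c : Cj f (E f (l36) (l37) (l38) 0 0 0 0 0 (t46) 0 0 0 0 0 (t53) (l54) (l55) 0 0 (t65) (l66) (t69) 0 0) (E f ((f l37)) ((f l36)) ((f l38) + (f l36)*(f l37)) (t53) ((f l54)) ((f l55)) (t65) ((f l66)) 0 0 0 0 0 0 0 0 0 (t69) 0 0 0 0 0 (t46)) := cjN f (nR_mem f [0, 1, 2, 3, 1, 2, 1]) (nE_LA_1_1_1_1_1_1_1_1_1_1_1_1_1_1 d.hff it46 it53 it65 it69)
  exact Res.of_cj f c (LA_1_1_1_1_1_1_1_1_1_1_1_1_1_1_1 d hp46 (c.mem f hm) (c.sq f hs))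

theorem LA_1_1_1_1_1_1_1_1_1_1_1_1_1 {l36 l37 l38 l54 l55 l66 t46 t53 t65 t69 t70 : K} (d : Dt f) (hp46 : t46 ≠ 0) (hm : E f (l36) (l37) (l38) 0 0 0 0 0 (t46) 0 0 0 0 0 (t53) (l54) (l55) 0 0 (t65) (l66) (t69) (t70) 0 ∈ (sc f).G1) (hs : E f (l36) (l37) (l38) 0 0 0 0 0 (t46) 0 0 0 0 0 (t53) (l54) (l55) 0 0 (t65) (l66) (t69) (t70) 0 * E f (l36) (l37) (l38) 0 0 0 0 0 (t46) 0 0 0 0 0 (t53) (l54) (l55) 0 0 (t65) (l66) (t69) (t70) 0 = 1) : Res f (E f (l36) (l37) (l38) 0 0 0 0 0 (t46) 0 0 0 0 0 (t53) (l54) (l55) 0 0 (t65) (l66) (t69) (t70) 0) := by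
  have h2 : (2 : K) = 0 := CharTwo.two_eq_zero
  have hz : t70 = 0 := by
    have h := hs
    unfold E at h
    rw [W_mul, ← W_zero] at h
    obtain ⟨-, -, -, -, -, -, -, -, -, -, -, -, -, -, -, -, -, -, -, -, -, -, -, -, -, -, -, -, -, -, -, -, -, -, -, h71⟩ := W_inj h
    try simp only [map_zero] at h71
    have key : t46*t70 = 0 := by linear_combination h71
    simpa [mul_eq_zero, map_eq_zero, pow_eq_zero_iff, hp46] using key
  subst hz
  exact LA_1_1_1_1_1_1_1_1_1_1_1_1_1_1 d hp46 hm hs

theorem LA_1_1_1_1_1_1_1_1_1_1_1_1 {l36 l37 l38 l54 l55 l66 t46 t53 t60 t65 t69 t70 : K} (d : Dt f) (hp46 : t46 ≠ 0) (hm : E f (l36) (l37) (l38) 0 0 0 0 0 (t46) 0 0 0 0 0 (t53) (l54) (l55) (t60) 0 (t65) (l66) (t69) (t70) 0 ∈ (sc f).G1) (hs : E f (l36) (l37) (l38) 0 0 0 0 0 (t46) 0 0 0 0 0 (t53) (l54) (l55) (t60) 0 (t65) (l66) (t69) (t70) 0 * E f (l36) (l37) (l38) 0 0 0 0 0 (t46) 0 0 0 0 0 (t53) (l54) (l55) (t60) 0 (t65) (l66) (t69) (t70) 0 = 1) : Res f (E f (l36) (l37) (l38) 0 0 0 0 0 (t46) 0 0 0 0 0 (t53) (l54) (l55) (t60) 0 (t65)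 (l66) (t69) (t70) 0) := by
  have h2 : (2 : K) = 0 := CharTwo.two_eq_zero
  have hz : t60 = 0 := by
    have h := hs
    unfold E at h
    rw [W_mul, ← W_zero] at h
    obtain ⟨-, -, -, -, -, -, -, -, -, -, -, -, -, -, -, -, -, -, -, -, -, -, -, -, -, -, -, h63, -, -, -, -, -, -, -, -⟩ := W_inj h
    try simp only [map_zero] at h63
    have key : t46*t60 = 0 := by linear_combination h63
    simpa [mul_eq_zero, map_eq_zero, pow_eq_zero_iff, hp46] using key
  subst hz
  exact LA_1_1_1_1_1_1_1_1_1_1_1_1_1 d hp46 hm hs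

theorem LA_1_1_1_1_1_1_1_1_1_1_1 {l36 l37 l38 l45 l54 l55 l66 t46 t53 t60 t65 t69 t70 : K} (d : Dt f) (hp46 : t46 ≠ 0) (hm : E f (l36) (l37) (l38) 0 0 0 0 (l45) (t46) 0 0 0 0 0 (t53) (l54) (l55) (t60) 0 (t65) (l66) (t69) (t70) 0 ∈ (sc f).G1) (hs : E f (l36) (l37) (l38) 0 0 0 0 (l45) (t46) 0 0 0 0 0 (t53) (l54) (l55) (t60) 0 (t65) (l66) (t69) (t70) 0 * E f (l36) (l37) (l38) 0 0 0 0 (l45) (t46) 0 0 0 0 0 (t53) (l54) (l55) (t60) 0 (t65) (l66) (t69) (t70) 0 = 1) : Res f (E f (l36) (l37) (l38) 0 0 0 0 (l45) (t46) 0 0 0 0 0 (t53) (l54) (l55) (t60) 0 (t65) (l66) (t69) (t70) 0) := by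
  have h2 : (2 : K) = 0 := CharTwo.two_eq_zero
  have hz : l45 = 0 := by
    have h := hs
    unfold E at h
    rw [W_mul, ← W_zero] at h
    obtain ⟨-, -, -, -, -, -, -, -, -, -, -, -, -, -, -, -, h52, -, -, -, -, -, -, -, -, -, -, -, -, -, -, -, -, -, -, -⟩ := W_inj h
    try simp only [map_zero] at h52
    have key : l45*t46 = 0 := by linear_combination h52
    simpa [mul_eq_zero, map_eq_zero, pow_eq_zero_iff, hp46] using key
  subst hz
  exact LA_1_1_1_1_1_1_1_1_1_1_1_1 d hp46 hm hs

theorem LA_1_1_1_1_1_1_1_1_1_1 {l36 l37 l38 l45 l54 l55 l66 t44 t46 t53 t60 t65 t69 t70 : K} (d : Dt f) (hp46 : t46 ≠ 0) (hm : E f (l36) (l37) (l38) 0 0 0 (t44) (l45) (t46) 0 0 0 0 0 (t53) (l54) (l55) (t60) 0 (t65) (l66) (t69) (t70) 0 ∈ (sc f).G1) (hs : E f (l36) (l37) (l38) 0 0 0 (t44) (l45) (t46) 0 0 0 0 0 (t53) (l54) (l55) (t60) 0 (t65) (l66) (t69) (t70) 0 * E f (l36) (l37) (l38) 0 0 0 (t44) (l45) (t46) 0 0 0 0 0 (t53) (l54) (l55) (t60) 0 (t65) (l66) (t69) (t70) 0 = 1) : Res f (E f (l36) (l37) (l38) 0 0 0 (t44) (l45) (t46) 0 0 0 0 0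 (t53) (l54) (l55) (t60) 0 (t65) (l66) (t69) (t70) 0) := by
  have h2 : (2 : K) = 0 := CharTwo.two_eq_zero
  have hz : t44 = 0 := by
    have h := hs
    unfold E at h
    rw [W_mul, ← W_zero] at h
    obtain ⟨-, -, -, -, -, -, -, -, -, -, -, -, -, -, -, h51, -, -, -, -, -, -, -, -, -, -, -, -, -, -, -, -, -, -, -, -⟩ := W_inj h
    try simp only [map_zero] at h51
    have key : t44*t46 = 0 := by linear_combination h51
    simpa [mul_eq_zero, map_eq_zero, pow_eq_zero_iff, hp46] using key
  subst hz
  exact LA_1_1_1_1_1_1_1_1_1_1_1 d hp46 hm hs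

theorem LA_1_1_1_1_1_1_1_1_1 {l36 l37 l38 l41 l45 l54 l55 l66 t44 t46 t53 t60 t65 t69 t70 : K} (d : Dt f) (hp46 : t46 ≠ 0) (hm : E f (l36) (l37) (l38) 0 0 (l41) (t44) (l45) (t46) 0 0 0 0 0 (t53) (l54) (l55) (t60) 0 (t65) (l66) (t69) (t70) 0 ∈ (sc f).G1) (hs : E f (l36) (l37) (l38) 0 0 (l41) (t44) (l45) (t46) 0 0 0 0 0 (t53) (l54) (l55) (t60) 0 (t65) (l66) (t69) (t70) 0 * E f (l36) (l37) (l38) 0 0 (l41) (t44) (l45) (t46) 0 0 0 0 0 (t53) (l54) (l55) (t60) 0 (t65) (l66) (t69) (t70) 0 = 1) : Res f (E f (l36) (l37) (l38) 0 0 (l41) (t44) (l45) (t46) 0 0 0 0 0 (t53) (l54) (l55) (t60) 0 (t65) (l66) (t69) (t70) 0) := by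
  have h2 : (2 : K) = 0 := CharTwo.two_eq_zero
  have hz : l41 = 0 := by
    have h := hs
    unfold E at h
    rw [W_mul, ← W_zero] at h
    obtain ⟨-, -, -, -, -, -, -, -, -, -, -, -, -, h49, -, -, -, -, -, -, -, -, -, -, -, -, -, -, -, -, -, -, -, -, -, -⟩ := W_inj h
    try simp only [map_zero] at h49
    have key : l41*t46 = 0 := by linear_combination h49
    simpa [mul_eq_zero, map_eq_zero, pow_eq_zero_iff, hp46] using key
  subst hz
  exact LA_1_1_1_1_1_1_1_1_1_1 d hp46 hm hs

theorem LA_1_1_1_1_1_1_1_1 {l36 l37 l38 l40 l41 l45 l54 l55 l66 t44 t46 t53 t60 t65 t69 t70 : K} (d : Dt f) (hp46 : t46 ≠ 0) (hm : E f (l36) (l37) (l38) 0 (l40) (l41) (t44) (l45) (t46) 0 0 0 0 0 (t53) (l54) (l55) (t60) 0 (t65) (l66) (t69) (t70) 0 ∈ (sc f).G1) (hs : E f (l36) (l37) (l38) 0 (l40) (l41) (t44) (l45) (t46) 0 0 0 0 0 (t53) (l54) (l55) (t60) 0 (t65) (l66) (t69) (t70) 0 * E f (l36) (l37) (l38) 0 (l40) (l41) (t44) (l45) (t46) 0 0 0 0 0 (t53) (l54) (l55) (t60) 0 (t65) (l66) (t69) (t70) 0 = 1) : Res f (E f (l36) (l37) (l38) 0 (l40) (l41)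 (t44) (l45) (t46) 0 0 0 0 0 (t53) (l54) (l55) (t60) 0 (t65) (l66) (t69) (t70) 0) := by
  have h2 : (2 : K) = 0 := CharTwo.two_eq_zero
  have hz : l40 = 0 := by
    have h := hs
    unfold E at h
    rw [W_mul, ← W_zero] at h
    obtain ⟨-, -, -, -, -, -, -, -, -, -, -, -, h48, -, -, -, -, -, -, -, -, -, -, -, -, -, -, -, -, -, -, -, -, -, -, -⟩ := W_inj h
    try simp only [map_zero] at h48
    have key : l40*t46 = 0 := by linear_combination h48
    simpa [mul_eq_zero, map_eq_zero, pow_eq_zero_iff, hp46] using key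
  subst hz
  exact LA_1_1_1_1_1_1_1_1_1 d hp46 hm hs

theorem LA_1_1_1_1_1_1_1 {l36 l37 l38 l40 l41 l45 l54 l55 l66 t39 t44 t46 t53 t60 t65 t69 t70 : K} (d : Dt f) (hp46 : t46 ≠ 0) (hm : E f (l36) (l37) (l38) (t39) (l40) (l41) (t44) (l45) (t46) 0 0 0 0 0 (t53) (l54) (l55) (t60) 0 (t65) (l66) (t69) (t70) 0 ∈ (sc f).G1) (hs : E f (l36) (l37) (l38) (t39) (l40) (l41) (t44) (l45) (t46) 0 0 0 0 0 (t53) (l54) (l55) (t60) 0 (t65) (l66) (t69) (t70) 0 * E f (l36) (l37) (l38) (t39) (l40) (l41) (t44) (l45) (t46) 0 0 0 0 0 (t53) (l54) (l55) (t60) 0 (t65) (l66) (t69) (t70) 0 = 1) : Res f (E f (l36) (l37) (l38) (t39) (l40) (l41) (t44) (l45) (t46) 0 0 0 0 0 (t53) (l54) (l55) (t60) 0 (t65) (l66) (t69) (t70) 0) := by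
  have h2 : (2 : K) = 0 := CharTwo.two_eq_zero
  have hz : t39 = 0 := by
    have h := hs
    unfold E at h
    rw [W_mul, ← W_zero] at h
    obtain ⟨-, -, -, -, -, -, -, -, -, -, -, h47, -, -, -, -, -, -, -, -, -, -, -, -, -, -, -, -, -, -, -, -, -, -, -, -⟩ := W_inj h
    try simp only [map_zero] at h47
    have key : t39*t46 = 0 := by linear_combination h47
    simpa [mul_eq_zero, map_eq_zero, pow_eq_zero_iff, hp46] using key
  subst hz
  exact LA_1_1_1_1_1_1_1_1 d hp46 hm hs

theorem LA_1_1_1_1_1_1 {l36 l37 l38 l40 l41 l45 l54 l55 l66 t39 t44 t46 t53 t60 t65 t69 t70 t71 : K} (d : Dt f) (hp46 : t46 ≠ 0) (hm : E f (l36) (l37) (l38) (t39) (l40) (l41) (t44) (l45) (t46) 0 0 0 0 0 (t53) (l54) (l55) (t60) 0 (t65) (l66) (t69) (t70) (t71) ∈ (sc f).G1) (hs : E f (l36) (l37) (l38) (t39) (l40) (l41) (t44) (l45) (t46) 0 0 0 0 0 (t53) (l54) (l55) (t60) 0 (t65) (l66) (t69) (t70) (t71) * E f (l36) (l37) (l38) (t39) (l40) (l41) (t44) (l45) (t46) 0 0 0 0 0 (t53) (l54) (l55) (t60) 0 (t65) (l66) (t69) (t70) (t71) = 1) : Res f (E f (l36)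 (l37) (l38) (t39) (l40) (l41) (t44) (l45) (t46) 0 0 0 0 0 (t53) (l54) (l55) (t60) 0 (t65) (l66) (t69) (t70) (t71)) := by
  obtain ⟨it39, it44, it46, it47, it51, it53, it60, it63, it65, it69, it70, it71⟩ := inv_of_mem d hm
  obtain ⟨w, hw, rfl⟩ := solve_fix hp46 (by simp only [map_mul, map_pow, map_one, map_zero, map_add, it46]) it71
  have c : Cj f (E f (l36) (l37) (l38) (t39) (l40) (l41) (t44) (l45) (t46) 0 0 0 0 0 (t53) (l54) (l55) (t60) 0 (t65) (l66) (t69) (t70) ((t46) * w)) (E f (l36) (l37) (l38) (t39) (l40) (l41) (t44) (l45) (t46) 0 0 0 0 0 (t53) (l54) (l55) (t60) 0 (t65) (l66) (t69) (t70) 0) := cjS f (E_mem_G1 d (map_zero f) (map_zero f) (map_zero f) (map_zero f) (map_zero f) (map_zero f) (map_zero f) (map_zero f) (map_zero f) (map_zero f) hw (map_zero f) 0 0 0 0 0 0 0 0 0 0 0 0) (st_LA_1_1_1_1_1_1 d.hff it39 it44 it46 it53 it60 it65 it69 it70 hw)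
  exact Res.of_cj f c (LA_1_1_1_1_1_1_1 d hp46 (c.mem f hm) (c.sq f hs))

theorem LA_1_1_1_1_1 {l36 l37 l38 l40 l41 l45 l54 l55 l66 t39 t44 t46 t53 t60 t63 t65 t69 t70 t71 : K} (d : Dt f) (hp46 : t46 ≠ 0) (hm : E f (l36) (l37) (l38) (t39) (l40) (l41) (t44) (l45) (t46) 0 0 0 0 0 (t53) (l54) (l55) (t60) (t63) (t65) (l66) (t69) (t70) (t71) ∈ (sc f).G1) (hs : E f (l36) (l37) (l38) (t39) (l40) (l41) (t44) (l45) (t46) 0 0 0 0 0 (t53) (l54) (l55) (t60) (t63) (t65) (l66) (t69) (t70) (t71) * E f (l36) (l37) (l38) (t39) (l40) (l41) (t44) (l45) (t46) 0 0 0 0 0 (t53) (l54) (l55) (t60) (t63) (t65) (l66) (t69) (t70) (t71) = 1) : Res f (E f (l36) (l37) (l38) (t39) (l40) (l41) (t44) (l45) (t46) 0 0 0 0 0 (t53) (l54) (l55) (t60) (t63) (t65) (l66) (t69) (t70) (t71)) := by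
  obtain ⟨it39, it44, it46, it47, it51, it53, it60, it63, it65, it69, it70, it71⟩ := inv_of_mem d hm
  obtain ⟨w, hw, rfl⟩ := solve_fix hp46 (by simp only [map_mul, map_pow, map_one, map_zero, map_add, it46]) it63
  have c : Cj f (E f (l36) (l37) (l38) (t39) (l40) (l41) (t44) (l45) (t46) 0 0 0 0 0 (t53) (l54) (l55) (t60) ((t46) * w) (t65) (l66) (t69) (t70) (t71)) (E f (l36) (l37) (l38) (t39) (l40) (l41) (t44) (l45) (t46) 0 0 0 0 0 (t53) (l54) (l55) (t60) 0 (t65) (l66) (t69) (t70 + t53*w) (t71 + t46*t53*w)) := cjS f (E_mem_G1 d (map_zero f) (map_zero f) (map_zero f) (map_zero f) (map_zero f) (map_zero f) hw (map_zero f) (map_zero f) (map_zero f) (map_zero f) (map_zero f) 0 0 0 0 0 0 0 0 0 0 0 0) (st_LA_1_1_1_1_1 d.hff it39 it44 it46 it53 it60 it65 it69 it70 it71 hw)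
  exact Res.of_cj f c (LA_1_1_1_1_1_1 d hp46 (c.mem f hm) (c.sq f hs))

theorem LA_1_1_1_1 {l36 l37 l38 l40 l41 l45 l52 l54 l55 l66 t39 t44 t46 t53 t60 t63 t65 t69 t70 t71 : K} (d : Dt f) (hp46 : t46 ≠ 0) (hm : E f (l36) (l37) (l38) (t39) (l40) (l41) (t44) (l45) (t46) 0 0 0 0 (l52) (t53) (l54) (l55) (t60) (t63) (t65) (l66) (t69) (t70) (t71) ∈ (sc f).G1) (hs : E f (l36) (l37) (l38) (t39) (l40) (l41) (t44) (l45) (t46) 0 0 0 0 (l52) (t53) (l54) (l55) (t60) (t63) (t65) (l66) (t69) (t70) (t71) * E f (l36) (l37) (l38) (t39) (l40) (l41) (t44) (l45) (t46) 0 0 0 0 (l52) (t53) (l54) (l55) (t60) (t63) (t65) (l66) (t69) (t70) (t71) = 1) : Res f (E f (l36) (l37) (l38) (t39) (l40) (l41) (t44) (l45) (t46) 0 0 0 0 (l52) (t53) (l54) (l55) (t60) (t63) (t65) (l66) (t69) (t70) (t71)) := by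
  obtain ⟨it39, it44, it46, it47, it51, it53, it60, it63, it65, it69, it70, it71⟩ := inv_of_mem d hm
  obtain ⟨y, rfl⟩ := solve_mul hp46 l52
  have c : Cj f (E f (l36) (l37) (l38) (t39) (l40) (l41) (t44) (l45) (t46) 0 0 0 0 ((t46) * y) (t53) (l54) (l55) (t60) (t63) (t65) (l66) (t69) (t70) (t71)) (E f (l36) (l37) (l38) (t39) (l40) (l41) (t44) (l45) (t46) 0 0 0 0 0 (t53) (l54) (l55) (t60 + l36*(f y) + y*(f l36)) (t63 + l36*t46*(f y) + t46*y*(f l36)) (t65) (l66) (t69 + t46*y*(f y)) (t70 + l54*(f y) + y*(f l54) + l36*t53*(f y) + t53*y*(f l36)) (t71 + l36*t46*t53*(f y) + t46*t53*y*(f l36))) := cjS f (E_mem_G1 d (map_zero f) (map_zero f) (map_zero f) (map_zero f) (map_zero f) (map_zero f) (map_zero f) (map_zero f) (map_zero f) (map_zero f) (map_zero f) (map_zero f) 0 0 0 0 0 (y) 0 0 0 0 0 0) (st_LA_1_1_1_1 d.hff it39 it44 it46 it53 it60 it63 it65 it69 it70 it71)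
  exact Res.of_cj f c (LA_1_1_1_1_1 d hp46 (c.mem f hm) (c.sq f hs))

theorem LA_1_1_1 {l36 l37 l38 l40 l41 l45 l52 l54 l55 l66 t39 t44 t46 t51 t53 t60 t63 t65 t69 t70 t71 : K} (d : Dt f) (hp46 : t46 ≠ 0) (hm : E f (l36) (l37) (l38) (t39) (l40) (l41) (t44) (l45) (t46) 0 0 0 (t51) (l52) (t53) (l54) (l55) (t60) (t63) (t65) (l66) (t69) (t70) (t71) ∈ (sc f).G1) (hs : E f (l36) (l37) (l38) (t39) (l40) (l41) (t44) (l45) (t46) 0 0 0 (t51) (l52) (t53) (l54) (l55) (t60) (t63) (t65) (l66) (t69) (t70) (t71) * E f (l36) (l37) (l38) (t39) (l40) (l41) (t44) (l45) (t46) 0 0 0 (t51) (l52) (t53) (l54) (l55) (t60) (t63) (t65) (l66) (t69) (t70) (t71) = 1) : Res f (E f (l36) (l37) (l38) (t39) (l40) (l41) (t44) (l45) (t46) 0 0 0 (t51) (l52) (t53) (l54) (l55) (t60) (t63) (t65) (l66) (t69) (t70) (t71)) := by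
  obtain ⟨it39, it44, it46, it47, it51, it53, it60, it63, it65, it69, it70, it71⟩ := inv_of_mem d hm
  obtain ⟨w, hw, rfl⟩ := solve_fix hp46 (by simp only [map_mul, map_pow, map_one, map_zero, map_add, it46]) it51
  have c : Cj f (E f (l36) (l37) (l38) (t39) (l40) (l41) (t44) (l45) (t46) 0 0 0 ((t46) * w) (l52) (t53) (l54) (l55) (t60) (t63) (t65) (l66) (t69) (t70) (t71)) (E f (l36) (l37) (l38) (t39) (l40) (l41) (t44) (l45 + l36*w) (t46) 0 0 0 0 (l52) (t53) (l54) (l55) (t60 + l36*w*(f l36)) (t63 + l36*t46*w*(f l36)) (t65) (l66) (t69 + t63*w) (t70 + t65*w + l36*t53*w*(f l36)) (t71 + l36*t46*t53*w*(f l36))) := cjS f (E_mem_G1 d (map_zero f) hw (map_zero f) (map_zero f) (map_zero f) (map_zero f) (map_zero f) (map_zero f) (map_zero f) (map_zero f) (map_zero f) (map_zero f) 0 0 0 0 0 0 0 0 0 0 0 0) (st_LA_1_1_1 d.hff it39 it44 it46 it53 it60 it63 it65 it69 it70 it71 hw)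
  exact Res.of_cj f c (LA_1_1_1_1 d hp46 (c.mem f hm) (c.sq f hs))

theorem LA_1_1 {l36 l37 l38 l40 l41 l45 l49 l52 l54 l55 l66 t39 t44 t46 t51 t53 t60 t63 t65 t69 t70 t71 : K} (d : Dt f) (hp46 : t46 ≠ 0) (hm : E f (l36) (l37) (l38) (t39) (l40) (l41) (t44) (l45) (t46) 0 0 (l49) (t51) (l52) (t53) (l54) (l55) (t60) (t63) (t65) (l66) (t69) (t70) (t71) ∈ (sc f).G1) (hs : E f (l36) (l37) (l38) (t39) (l40) (l41) (t44) (l45) (t46) 0 0 (l49) (t51) (l52) (t53) (l54) (l55) (t60) (t63) (t65) (l66) (t69) (t70) (t71) * E f (l36) (l37) (l38) (t39) (l40) (l41) (t44) (l45) (t46) 0 0 (l49) (t51) (l52) (t53) (l54) (l55) (t60) (t63) (t65) (l66) (t69) (t70) (t71) = 1) : Res f (E f (l36) (l37) (l38) (t39) (l40) (l41) (t44) (l45) (t46) 0 0 (l49) (t51) (l52) (t53) (l54) (l55) (t60) (t63) (t65) (l66) (t69) (t70) (t71)) := by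
  obtain ⟨it39, it44, it46, it47, it51, it53, it60, it63, it65, it69, it70, it71⟩ := inv_of_mem d hm
  obtain ⟨y, rfl⟩ := solve_mul hp46 l49
  have c : Cj f (E f (l36) (l37) (l38) (t39) (l40) (l41) (t44) (l45) (t46) 0 0 ((t46) * y) (t51) (l52) (t53) (l54) (l55) (t60) (t63) (t65) (l66) (t69) (t70) (t71)) (E f (l36) (l37) (l38) (t39) (l40) (l41) (t44) (l45 + y*(f l37)) (t46) 0 0 0 (t51) (l52) (t53) (l54) (l55 + t51*y) (t60 + l38*(f y) + y*(f l38)) (t63 + l38*t46*(f y) + t46*y*(f l38)) (t65 + t46*y*(f y)) (l66 + y*(f l52)) (t69 + l38*t51*(f y) + t51*y*(f l38)) (t70 + l55*(f y) + y*(f l55) + l38*t53*(f y) + t51*y*(f y) + t53*y*(f l38)) (t71 + l38*t46*t53*(f y) + t46*t51*y*(f y) + t46*t53*y*(f l38))) := cjS f (E_mem_G1 d (map_zero f) (map_zero f) (map_zero f) (map_zero f) (map_zero f) (map_zero f) (map_zero f) (map_zero f) (map_zero f) (map_zero f) (map_zero f) (map_zero f) 0 0 0 0 (y) 0 0 0 0 0 0 0) (st_LA_1_1 d.hff it39 it44 it46 it51 it53 it60 it63 it65 it69 it70 it71)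
  exact Res.of_cj f c (LA_1_1_1 d hp46 (c.mem f hm) (c.sq f hs))

theorem LA_1 {l36 l37 l38 l40 l41 l45 l48 l49 l52 l54 l55 l66 t39 t44 t46 t51 t53 t60 t63 t65 t69 t70 t71 : K} (d : Dt f) (hp46 : t46 ≠ 0) (hm : E f (l36) (l37) (l38) (t39) (l40) (l41) (t44) (l45) (t46) 0 (l48) (l49) (t51) (l52) (t53) (l54) (l55) (t60) (t63) (t65) (l66) (t69) (t70) (t71) ∈ (sc f).G1) (hs : E f (l36) (l37) (l38) (t39) (l40) (l41) (t44) (l45) (t46) 0 (l48) (l49) (t51) (l52) (t53) (l54) (l55) (t60) (t63) (t65) (l66) (t69) (t70) (t71) * E f (l36) (l37) (l38) (t39) (l40) (l41) (t44) (l45) (t46) 0 (l48) (l49) (t51) (l52) (t53) (l54) (l55) (t60) (t63) (t65) (l66) (t69) (t70) (t71) = 1) : Res f (E f (l36) (l37) (l38) (t39) (l40) (l41) (t44) (l45) (t46) 0 (l48) (l49) (t51) (l52) (t53) (l54) (l55) (t60) (t63) (t65) (l66) (t69) (t70) (t71)) := by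
  obtain ⟨it39, it44, it46, it47, it51, it53, it60, it63, it65, it69, it70, it71⟩ := inv_of_mem d hm
  obtain ⟨y, rfl⟩ := solve_mul hp46 l48
  have c : Cj f (E f (l36) (l37) (l38) (t39) (l40) (l41) (t44) (l45) (t46) 0 ((t46) * y) (l49) (t51) (l52) (t53) (l54) (l55) (t60) (t63) (t65) (l66) (t69) (t70) (t71)) (E f (l36) (l37) (l38) (t39) (l40) (l41 + l36*y) (t44 + l37*(f y) + y*(f l37)) (l45 + l38*(f y) + l36*y*(f l37)) (t46) 0 0 (l49) (t51) (l52) (t53 + t46*y*(f y)) (l54 + l49*(f y)) (l55 + l52*y) (t60 + l36*y*(f l38) + l38*(f l36)*(f y)) (t63 + l36*t46*y*(f l38) + l38*t46*(f l36)*(f y)) (t65) (l66 + t63*y) (t69 + l36*t51*y*(f l38) + l38*t51*(f l36)*(f y)) (t70 + l66*(f y) + y*(f l66) + t63*y*(f y) + l36*t53*y*(f l38) + l38*t53*(f l36)*(f y) + l36*t46*y^2*(f l38)*(f y) + l38*t46*y*(f l36)*(f y)^2) (t71 + l49*(f l52)*(f y) + l52*y*(f l49) + l36*t46*t53*y*(f l38) + l38*t46*t53*(f l36)*(f y) + l36*t46^2*y^2*(f l38)*(f y) + l38*t46^2*y*(f l36)*(f y)^2)) := cjS f (E_mem_G1 d (map_zero f) (map_zero f) (map_zero f) (map_zero f)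 (map_zero f) (map_zero f) (map_zero f) (map_zero f) (map_zero f) (map_zero f) (map_zero f) (map_zero f) 0 0 0 (y) 0 0 0 0 0 0 0 0) (st_LA_1 d.hff it39 it44 it46 it51 it53 it60 it63 it65 it69 it70 it71)
  exact Res.of_cj f c (LA_1_1 d hp46 (c.mem f hm) (c.sq f hs))

theorem LA {l36 l37 l38 l40 l41 l45 l48 l49 l52 l54 l55 l66 t39 t44 t46 t47 t51 t53 t60 t63 t65 t69 t70 t71 : K} (d : Dt f) (hp46 : t46 ≠ 0) (hm : E f (l36) (l37) (l38) (t39) (l40) (l41) (t44) (l45) (t46) (t47) (l48) (l49) (t51) (l52) (t53) (l54) (l55) (t60) (t63) (t65) (l66) (t69) (t70) (t71) ∈ (sc f).G1) (hs : E f (l36) (l37) (l38) (t39) (l40) (l41) (t44) (l45) (t46) (t47) (l48) (l49) (t51) (l52) (t53) (l54) (l55) (t60) (t63) (t65) (l66) (t69) (t70) (t71) * E f (l36) (l37) (l38) (t39) (l40) (l41) (t44) (l45) (t46) (t47) (l48) (l49) (t51) (l52) (t53) (l54) (l55) (t60) (t63) (t65) (l66) (t69) (t70) (t71) = 1) : Res f (E f (l36) (l37) (l38) (t39) (l40) (l41) (t44) (l45) (t46) (t47) (l48) (l49) (t51) (l52) (t53) (l54) (l55) (t60) (t63) (t65) (l66) (t69) (t70) (t71))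 := by
  obtain ⟨it39, it44, it46, it47, it51, it53, it60, it63, it65, it69, it70, it71⟩ := inv_of_mem d hm
  obtain ⟨w, hw, rfl⟩ := solve_fix hp46 (by simp only [map_mul, map_pow, map_one, map_zero, map_add, it46]) it47
  have c : Cj f (E f (l36) (l37) (l38) (t39) (l40) (l41) (t44) (l45) (t46) ((t46) * w) (l48) (l49) (t51) (l52) (t53) (l54) (l55) (t60) (t63) (t65) (l66) (t69) (t70) (t71)) (E f (l36) (l37) (l38) (t39) (l40 + l37*w) (l41 + l38*w) (t44 + l37*w*(f l37)) (l45 + l38*w*(f l37)) (t46) 0 (l48) (l49) (t51) (l52) (t53 + t51*w) (l54 + l52*w) (l55) (t60 + l38*w*(f l38)) (t63 + l38*t46*w*(f l38)) (t65 + t63*w) (l66 + l38*l48*w*(f l38)) (t69 + l38*t51*w*(f l38)) (t70 + t69*w + l38*t53*w*(f l38) + l38*t51*w^2*(f l38)) (t71 + l52*w*(f l52) + l38*l48*w*(f l38)*(f l48) + l38*t46*t53*w*(f l38) + l38*t46*t51*w^2*(f l38))) := cjS f (E_mem_G1 d hw (map_zero f) (map_zero f) (map_zero f) (map_zero f) (map_zero f) (map_zero f) (map_zero f) (map_zero f) (map_zero f) (map_zero f) (map_zero f) 0 0 0 0 0 0 0 0 0 0 0 0) (st_LA d.hff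 it39 it44 it46 it51 it53 it60 it63 it65 it69 it70 it71 hw)
  exact Res.of_cj f c (LA_1 d hp46 (c.mem f hm) (c.sq f hs))

end Cfsg.Agent.Lib.E6Inv50
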