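import Cfsg.Agent.Lib.E6Inv50H

/-!
# The involutions of `²E₆(q)`, `q` even: reduction chains
-/

set_option autoImplicit false
set_option linter.unusedSectionVars false
set_option linter.unusedVariables false
set_option linter.unusedSimpArgs false
set_option maxRecDepth 100000
set_option maxHeartbeats 4000000
set_option linter.unusedTactic false
set_option linter.unreachableTactic false

namespace Cfsg.Agent.Lib.E6Inv50

open Cfsg Cfsg.Lie Cfsg.Agent.Lib.Chev Cfsg.Agent.Lib.Chev.TwE6

variable {K : Type*} [Field K] [CharP K 2] [Fintype K] {f : K ≃+* K}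

theorem st_LB {l36 l37 l38 l41 l45 l48 l49 l52 l54 l55 l66 t39 t44 t47 t51 t53 t60 t63 t65 t69 t70 t71 y : K} (hff : ∀ t, f (f t) = t) (it39 : f t39 = t39) (it44 : f t44 = t44) (it47 : f t47 = t47) (it51 : f t51 = t51) (it53 : f t53 = t53) (it60 : f t60 = t60) (it63 : f t63 = t63) (it65 : f t65 = t65) (it69 : f t69 = t69) (it70 : f t70 = t70) (it71 : f t71 = t71) :
    E f 0 (y) 0 0 0 0 0 0 0 0 0 0 0 0 0 0 0 0 0 0 0 0 0 0 * E f (l36) (l37) (l38) (t39) ((t39) * y) (l41) (t44) (l45) 0 (t47) (l48) (l49) (t51) (l52) (t53) (l54) (l55) (t60) (t63) (t65) (l66) (t69) (t70) (t71) = E f (l36) (l37) (l38 + l36*y) (t39) 0 (l41) (t44 + t39*y*(f y)) (l45 + l41*(f y)) 0 (t47) (l48 + t47*y) (l49) (t51 + l48*(f y) + y*(f l48) + t47*y*(f y)) (l52 + l49*(f y)) (t53) (l54) (l55 + l54*y) (t60) (t63) (t65) (l66 + t65*y) (t69 + l66*(f y) + y*(f l66) + t65*y*(f y)) (t70) (t71) * E f 0 (y) 0 0 0 0 0 0 0 0 0 0 0 0 0 0 0 0 0 0 0 0 0 0 := by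
  have h2 : (2 : K) = 0 := CharTwo.two_eq_zero
  unfold E
  rw [W_mul, W_mul]
  apply W_congr
  · (try simp only [map_add, map_mul, map_pow, map_zero, map_one, hff, it39, it44, it47, it51, it53, it60, it63, it65, it69, it70, it71]) <;> linear_combination (0 : K) * h2
  · (try simp only [map_add, map_mul, map_pow, map_zero, map_one, hff, it39, it44, it47, it51, it53, it60, it63, it65, it69, it70, it71]) <;> linear_combination (0 : K) * h2
  · (try simp only [map_add, map_mul, map_pow, map_zero, map_one, hff, it39, it44, it47, it51, it53, it60, it63, it65, it69, it70, it71]) <;> linear_combination (0 : K) * h2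
  · (try simp only [map_add, map_mul, map_pow, map_zero, map_one, hff, it39, it44, it47, it51, it53, it60, it63, it65, it69, it70, it71]) <;> linear_combination (0 : K) * h2
  · (try simp only [map_add, map_mul, map_pow, map_zero, map_one, hff, it39, it44, it47, it51, it53, it60, it63, it65, it69, it70, it71]) <;> linear_combination (0 : K) * h2
  · (try simp only [map_add, map_mul, map_pow, map_zero, map_one, hff, it39, it44, it47, it51, it53, it60, it63, it65, it69, it70, it71]) <;> linear_combination (0 : K) * h2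
  · (try simp only [map_add, map_mul, map_pow, map_zero, map_one, hff, it39, it44, it47, it51, it53, it60, it63, it65, it69, it70, it71]) <;> linear_combination (0 : K) * h2
  · (try simp only [map_add, map_mul, map_pow, map_zero, map_one, hff, it39, it44, it47, it51, it53, it60, it63, it65, it69, it70, it71]) <;> linear_combination (t39*(f y)) * h2
  · (try simp only [map_add, map_mul, map_pow, map_zero, map_one, hff, it39, it44, it47, it51, it53, it60, it63, it65, it69, it70, it71]) <;> linear_combination (0 : K) * h2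
  · (try simp only [map_add, map_mul, map_pow, map_zero, map_one, hff, it39, it44, it47, it51, it53, it60, it63, it65, it69, it70, it71]) <;> linear_combination (0 : K) * h2
  · (try simp only [map_add, map_mul, map_pow, map_zero, map_one, hff, it39, it44, it47, it51, it53, it60, it63, it65, it69, it70, it71]) <;> linear_combination (0 : K) * h2
  · (try simp only [map_add, map_mul, map_pow, map_zero, map_one, hff, it39, it44, it47, it51, it53, it60, it63, it65, it69, it70, it71]) <;> linear_combination (0 : K) * h2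
  · (try simp only [map_add, map_mul, map_pow, map_zero, map_one, hff, it39, it44, it47, it51, it53, it60, it63, it65, it69, it70, it71]) <;> linear_combination (-t47*y) * h2
  · (try simp only [map_add, map_mul, map_pow, map_zero, map_one, hff, it39, it44, it47, it51, it53, it60, it63, it65, it69, it70, it71]) <;> linear_combination (0 : K) * h2
  · (try simp only [map_add, map_mul, map_pow, map_zero, map_one, hff, it39, it44, it47, it51, it53, it60, it63, it65, it69, it70, it71]) <;> linear_combination (-t47*(f y)) * h2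
  · (try simp only [map_add, map_mul, map_pow, map_zero, map_one, hff, it39, it44, it47, it51, it53, it60, it63, it65, it69, it70, it71]) <;> linear_combination (-l48*(f y) - y*(f l48) - 2*t47*y*(f y)) * h2
  · (try simp only [map_add, map_mul, map_pow, map_zero, map_one, hff, it39, it44, it47, it51, it53, it60, it63, it65, it69, it70, it71]) <;> linear_combination (-l49*(f y)) * h2
  · (try simp only [map_add, map_mul, map_pow, map_zero, map_one, hff, it39, it44, it47, it51, it53, it60, it63, it65, it69, it70, it71]) <;> linear_combination (0 : K) * h2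
  · (try simp only [map_add, map_mul, map_pow, map_zero, map_one, hff, it39, it44, it47, it51, it53, it60, it63, it65, it69, it70, it71]) <;> linear_combination (0 : K) * h2
  · (try simp only [map_add, map_mul, map_pow, map_zero, map_one, hff, it39, it44, it47, it51, it53, it60, it63, it65, it69, it70, it71]) <;> linear_combination (-l54*y) * h2
  · (try simp only [map_add, map_mul, map_pow, map_zero, map_one, hff, it39, it44, it47, it51, it53, it60, it63, it65, it69, it70, it71]) <;> linear_combination (0 : K) * h2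
  · (try simp only [map_add, map_mul, map_pow, map_zero, map_one, hff, it39, it44, it47, it51, it53, it60, it63, it65, it69, it70, it71]) <;> linear_combination (-(f l36)*(f y)) * h2
  · (try simp only [map_add, map_mul, map_pow, map_zero, map_one, hff, it39, it44, it47, it51, it53, it60, it63, it65, it69, it70, it71]) <;> linear_combination (0 : K) * h2
  · (try simp only [map_add, map_mul, map_pow, map_zero, map_one, hff, it39, it44, it47, it51, it53, it60, it63, it65, it69, it70, it71]) <;> linear_combination (-y*(f l41) - t39*y*(f l36)*(f y)) * h2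
  · (try simp only [map_add, map_mul, map_pow, map_zero, map_one, hff, it39, it44, it47, it51, it53, it60, it63, it65, it69, it70, it71]) <;> linear_combination (-l41*(f l36)*(f y)) * h2
  · (try simp only [map_add, map_mul, map_pow, map_zero, map_one, hff, it39, it44, it47, it51, it53, it60, it63, it65, it69, it70, it71]) <;> linear_combination (-t47*(f l36)*(f y)) * h2
  · (try simp only [map_add, map_mul, map_pow, map_zero, map_one, hff, it39, it44, it47, it51, it53, it60, it63, it65, it69, it70, it71]) <;> linear_combination (-y*(f l49) - l48*(f l36)*(f y) - t47*y*(f l38) - y*(f l36)*(f l48) - t47*y*(f l36)*(f l37) - 2*t47*y*(f l36)*(f y)) * h2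
  · (try simp only [map_add, map_mul, map_pow, map_zero, map_one, hff, it39, it44, it47, it51, it53, it60, it63, it65, it69, it70, it71]) <;> linear_combination (-l49*(f l36)*(f y)) * h2
  · (try simp only [map_add, map_mul, map_pow, map_zero, map_one, hff, it39, it44, it47, it51, it53, it60, it63, it65, it69, it70, it71]) <;> linear_combination (-t47*y*(f l41) - t39*t47*y*(f l36)*(f y)) * h2
  · (try simp only [map_add, map_mul, map_pow, map_zero, map_one, hff, it39, it44, it47, it51, it53, it60, it63, it65, it69, it70, it71]) <;> linear_combination (-l41*t47*(f l36)*(f y)) * h2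
  · (try simp only [map_add, map_mul, map_pow, map_zero, map_one, hff, it39, it44, it47, it51, it53, it60, it63, it65, it69, it70, it71]) <;> linear_combination (-t65*y - l49*y*(f l41) - l54*y*(f l36) - l41*l48*(f l36)*(f y) - l41*t47*y*(f l38) - l45*t47*y*(f l36) - l41*t47*y*(f l36)*(f l37) - 2*l41*t47*y*(f l36)*(f y) - l49*t39*y*(f l36)*(f y)) * h2
  · (try simp only [map_add, map_mul, map_pow, map_zero, map_one, hff, it39, it44, it47, it51, it53, it60, it63, it65, it69, it70, it71]) <;> linear_combination (-(f l54)*(f y) - l48*(f l41)*(f y) - t47*(f l45)*(f y) - t53*(f l36)*(f y) - y*(f l41)*(f l48) - l48*t39*(f l38)*(f y) - t44*t47*(f l36)*(f y) - 2*t47*y*(f l41)*(f y) - l48*t39*(f l36)*(f l37)*(f y) - l48*t39*(f l36)*(f y)^2 - t39*t47*y*(f l38)*(f y) - t39*y*(f l36)*(f l48)*(f y) - t39*t47*y*(f l36)*(f l37)*(f y) - 2*t39*t47*y*(f l36)*(f y)^2) * h2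
  · (try simp only [map_add, map_mul, map_pow, map_zero, map_one, hff, it39, it44, it47, it51, it53, it60, it63, it65, it69, it70, it71]) <;> linear_combination (-t65*(f y) - l49*(f l41)*(f y) - l54*(f l36)*(f y) - l41*t47*(f l38)*(f y) - l41*(f l36)*(f l48)*(f y) - l45*t47*(f l36)*(f y) - l49*t39*(f l38)*(f y) - l41*t47*(f l36)*(f l37)*(f y) - 2*l41*t47*(f l36)*(f y)^2 - l49*t39*(f l36)*(f l37)*(f y) - l49*t39*(f l36)*(f y)^2) * h2
  · (try simp only [map_add, map_mul, map_pow, map_zero, map_one, hff, it39, it44, it47, it51, it53, it60, it63, it65, it69, it70, it71]) <;> linear_combination (-l66*(f y) - y*(f l66) - l49*(f l45)*(f y) - l52*y*(f l41) - l54*y*(f l38) - l55*(f l36)*(f y) - 2*t65*y*(f y) - l41*l48*(f l38)*(f y) - l41*t51*(f l36)*(f y) - l41*y*(f l38)*(f l48) - l45*l48*(f l36)*(f y) - l45*y*(f l36)*(f l48) - l49*t44*(f l36)*(f y) - 2*l49*y*(f l41)*(f y) - l54*y*(f l36)*(f l37) - 2*l54*y*(f l36)*(f y) - l41*l48*(f l36)*(f l37)*(f y) - 2*l41*l48*(f l36)*(f y)^2 - 2*l41*t47*y*(f l38)*(f y) - l41*y*(f l36)*(f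 l37)*(f l48) - 2*l41*y*(f l36)*(f l48)*(f y) - 2*l45*t47*y*(f l36)*(f y) - l49*t39*y*(f l38)*(f y) - l52*t39*y*(f l36)*(f y) - 2*l41*t47*y*(f l36)*(f l37)*(f y) - 4*l41*t47*y*(f l36)*(f y)^2 - l49*t39*y*(f l36)*(f l37)*(f y) - 2*l49*t39*y*(f l36)*(f y)^2) * h2
  · (try simp only [map_add, map_mul, map_pow, map_zero, map_one, hff, it39, it44, it47, it51, it53, it60, it63, it65, it69, it70, it71]) <;> linear_combination (-l54*y*(f l41) - l41*t53*(f l36)*(f y) - l54*t39*y*(f l36)*(f y)) * h2
  · (try simp only [map_add, map_mul, map_pow, map_zero, map_one, hff, it39, it44, it47, it51, it53, it60, it63, it65, it69, it70, it71]) <;> linear_combination (-l54*y*(f l49) - l48*l49*(f l41)*(f y) - l48*l54*(f l36)*(f y) - l49*t47*(f l45)*(f y) - l49*t53*(f l36)*(f y) - l49*y*(f l41)*(f l48) - l52*t47*y*(f l41) - l54*t47*y*(f l38) - l54*y*(f l36)*(f l48) - l55*t47*(f l36)*(f y) - l41*l48*t47*(f l38)*(f y) - l41*l48*(f l36)*(f l48)*(f y) - l41*t47*t51*(f l36)*(f y) - l41*t47*y*(f l38)*(f l48) - l45*l48*t47*(f l36)*(f y) - l45*t47*y*(f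 l36)*(f l48) - l48*l49*t39*(f l38)*(f y) - l49*t44*t47*(f l36)*(f y) - 2*l49*t47*y*(f l41)*(f y) - l54*t47*y*(f l36)*(f l37) - 2*l54*t47*y*(f l36)*(f y) - l41*l48*t47*(f l36)*(f l37)*(f y) - 2*l41*l48*t47*(f l36)*(f y)^2 - l41*t47^2*y*(f l38)*(f y) - l41*t47*y*(f l36)*(f l37)*(f l48) - 2*l41*t47*y*(f l36)*(f l48)*(f y) - l45*t47^2*y*(f l36)*(f y) - l48*l49*t39*(f l36)*(f l37)*(f y) - l48*l49*t39*(f l36)*(f y)^2 - l49*t39*t47*y*(f l38)*(f y) - l49*t39*y*(f l36)*(f l48)*(f y) - l52*t39*t47*y*(f l36)*(f y) - l41*t47^2*y*(f l36)*(f l37)*(f y) - 2*l41*t47^2*y*(f l36)*(f y)^2 - l49*t39*t47*y*(f l36)*(f l37)*(f y) - 2*l49*t39*t47*y*(f l36)*(f y)^2) * h2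

theorem st_LB_1 {l36 l37 l38 l41 l45 l48 l49 l52 l54 l55 l66 t39 t44 t51 t53 t60 t63 t65 t69 t70 t71 w : K} (hff : ∀ t, f (f t) = t) (it39 : f t39 = t39) (it44 : f t44 = t44) (it51 : f t51 = t51) (it53 : f t53 = t53) (it60 : f t60 = t60) (it63 : f t63 = t63) (it65 : f t65 = t65) (it69 : f t69 = t69) (it70 : f t70 = t70) (it71 : f t71 = t71) (iw : f w = w) :
    E f 0 0 0 0 0 0 0 0 (w) 0 0 0 0 0 0 0 0 0 0 0 0 0 0 0 * E f (l36) (l37) (l38) (t39) 0 (l41) (t44) (l45) 0 ((t39) * w) (l48) (l49) (t51) (l52) (t53) (l54) (l55) (t60) (t63) (t65) (l66) (t69) (t70) (t71) = E f (l36) (l37) (l38) (t39) 0 (l41) (t44) (l45) 0 0 (l48) (l49 + l41*w) (t51 + t44*w) (l52 + l45*w) (t53 + t39*t44*w) (l54 + l45*t39*w) (l55 + l41*t44*w) (t60) (t63 + t60*w) (t65 + l41*w*(f l41)) (l66 + l41*w*(f l45)) (t69 + l45*w*(f l45)) (t70 + l41*t44*w*(f l41) + l45*t39*w*(f l45)) (t71 + t70*w + l41*t44*w*(f l49) + l41*t51*w*(f l41) + l41*w*(f l45)*(f l48) + l45*l48*w*(f l41) + l45*t39*w*(f l52) + l49*t44*w*(f l41) + l52*t39*w*(f l45) + l45*t39*w^2*(f l45))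 * E f 0 0 0 0 0 0 0 0 (w) 0 0 0 0 0 0 0 0 0 0 0 0 0 0 0 := by
  have h2 : (2 : K) = 0 := CharTwo.two_eq_zero
  unfold E
  rw [W_mul, W_mul]
  apply W_congr
  · (try simp only [map_add, map_mul, map_pow, map_zero, map_one, hff, it39, it44, it51, it53, it60, it63, it65, it69, it70, it71, iw]) <;> linear_combination (0 : K) * h2
  · (try simp only [map_add, map_mul, map_pow, map_zero, map_one, hff, it39, it44, it51, it53, it60, it63, it65, it69, it70, it71, iw]) <;> linear_combination (0 : K) * h2
  · (try simp only [map_add, map_mul, map_pow, map_zero, map_one, hff, it39, it44, it51, it53, it60, it63, it65, it69, it70, it71, iw]) <;> linear_combination (0 : K) * h2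
  · (try simp only [map_add, map_mul, map_pow, map_zero, map_one, hff, it39, it44, it51, it53, it60, it63, it65, it69, it70, it71, iw]) <;> linear_combination (0 : K) * h2
  · (try simp only [map_add, map_mul, map_pow, map_zero, map_one, hff, it39, it44, it51, it53, it60, it63, it65, it69, it70, it71, iw]) <;> linear_combination (0 : K) * h2
  · (try simp only [map_add, map_mul, map_pow, map_zero, map_one, hff, it39, it44, it51, it53, it60, it63, it65, it69, it70, it71, iw]) <;> linear_combination (0 : K) * h2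
  · (try simp only [map_add, map_mul, map_pow, map_zero, map_one, hff, it39, it44, it51, it53, it60, it63, it65, it69, it70, it71, iw]) <;> linear_combination (0 : K) * h2
  · (try simp only [map_add, map_mul, map_pow, map_zero, map_one, hff, it39, it44, it51, it53, it60, it63, it65, it69, it70, it71, iw]) <;> linear_combination (0 : K) * h2
  · (try simp only [map_add, map_mul, map_pow, map_zero, map_one, hff, it39, it44, it51, it53, it60, it63, it65, it69, it70, it71, iw]) <;> linear_combination (0 : K) * h2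
  · (try simp only [map_add, map_mul, map_pow, map_zero, map_one, hff, it39, it44, it51, it53, it60, it63, it65, it69, it70, it71, iw]) <;> linear_combination (0 : K) * h2
  · (try simp only [map_add, map_mul, map_pow, map_zero, map_one, hff, it39, it44, it51, it53, it60, it63, it65, it69, it70, it71, iw]) <;> linear_combination (0 : K) * h2
  · (try simp only [map_add, map_mul, map_pow, map_zero, map_one, hff, it39, it44, it51, it53, it60, it63, it65, it69, it70, it71, iw]) <;> linear_combination (t39*w) * h2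
  · (try simp only [map_add, map_mul, map_pow, map_zero, map_one, hff, it39, it44, it51, it53, it60, it63, it65, it69, it70, it71, iw]) <;> linear_combination (0 : K) * h2
  · (try simp only [map_add, map_mul, map_pow, map_zero, map_one, hff, it39, it44, it51, it53, it60, it63, it65, it69, it70, it71, iw]) <;> linear_combination (0 : K) * h2
  · (try simp only [map_add, map_mul, map_pow, map_zero, map_one, hff, it39, it44, it51, it53, it60, it63, it65, it69, it70, it71, iw]) <;> linear_combination (t39*w*(f l37)) * h2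
  · (try simp only [map_add, map_mul, map_pow, map_zero, map_one, hff, it39, it44, it51, it53, it60, it63, it65, it69, it70, it71, iw]) <;> linear_combination (0 : K) * h2
  · (try simp only [map_add, map_mul, map_pow, map_zero, map_one, hff, it39, it44, it51, it53, it60, it63, it65, it69, it70, it71, iw]) <;> linear_combination (l41*w*(f l37)) * h2
  · (try simp only [map_add, map_mul, map_pow, map_zero, map_one, hff, it39, it44, it51, it53, it60, it63, it65, it69, it70, it71, iw]) <;> linear_combination (0 : K) * h2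
  · (try simp only [map_add, map_mul, map_pow, map_zero, map_one, hff, it39, it44, it51, it53, it60, it63, it65, it69, it70, it71, iw]) <;> linear_combination (l41*t39*w*(f l37)) * h2
  · (try simp only [map_add, map_mul, map_pow, map_zero, map_one, hff, it39, it44, it51, it53, it60, it63, it65, it69, it70, it71, iw]) <;> linear_combination (0 : K) * h2
  · (try simp only [map_add, map_mul, map_pow, map_zero, map_one, hff, it39, it44, it51, it53, it60, it63, it65, it69, it70, it71, iw]) <;> linear_combination (0 : K) * h2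
  · (try simp only [map_add, map_mul, map_pow, map_zero, map_one, hff, it39, it44, it51, it53, it60, it63, it65, it69, it70, it71, iw]) <;> linear_combination (0 : K) * h2
  · (try simp only [map_add, map_mul, map_pow, map_zero, map_one, hff, it39, it44, it51, it53, it60, it63, it65, it69, it70, it71, iw]) <;> linear_combination (0 : K) * h2
  · (try simp only [map_add, map_mul, map_pow, map_zero, map_one, hff, it39, it44, it51, it53, it60, it63, it65, it69, it70, it71, iw]) <;> linear_combination (0 : K) * h2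
  · (try simp only [map_add, map_mul, map_pow, map_zero, map_one, hff, it39, it44, it51, it53, it60, it63, it65, it69, it70, it71, iw]) <;> linear_combination (0 : K) * h2
  · (try simp only [map_add, map_mul, map_pow, map_zero, map_one, hff, it39, it44, it51, it53, it60, it63, it65, it69, it70, it71, iw]) <;> linear_combination (-w*(f l41)) * h2
  · (try simp only [map_add, map_mul, map_pow, map_zero, map_one, hff, it39, it44, it51, it53, it60, it63, it65, it69, it70, it71, iw]) <;> linear_combination (-w*(f l45) - t44*w*(f l36)) * h2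
  · (try simp only [map_add, map_mul, map_pow, map_zero, map_one, hff, it39, it44, it51, it53, it60, it63, it65, it69, it70, it71, iw]) <;> linear_combination (-t60*w - l41*w*(f l38) - l45*w*(f l36) - l41*w*(f l36)*(f l37)) * h2
  · (try simp only [map_add, map_mul, map_pow, map_zero, map_one, hff, it39, it44, it51, it53, it60, it63, it65, it69, it70, it71, iw]) <;> linear_combination (0 : K) * h2
  · (try simp only [map_add, map_mul, map_pow, map_zero, map_one, hff, it39, it44, it51, it53, it60, it63, it65, it69, it70, it71, iw]) <;> linear_combination (-l41*w*(f l41)) * h2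
  · (try simp only [map_add, map_mul, map_pow, map_zero, map_one, hff, it39, it44, it51, it53, it60, it63, it65, it69, it70, it71, iw]) <;> linear_combination (-l41*w*(f l45) - l41*t44*w*(f l36)) * h2
  · (try simp only [map_add, map_mul, map_pow, map_zero, map_one, hff, it39, it44, it51, it53, it60, it63, it65, it69, it70, it71, iw]) <;> linear_combination (-t44*w*(f l41) - t39*t44*w*(f l38) - t39*t44*w*(f l36)*(f l37)) * h2
  · (try simp only [map_add, map_mul, map_pow, map_zero, map_one, hff, it39, it44, it51, it53, it60, it63, it65, it69, it70, it71, iw]) <;> linear_combination (-l45*w*(f l41) - l45*t39*w*(f l38) - l45*t39*w*(f l36)*(f l37)) * h2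
  · (try simp only [map_add, map_mul, map_pow, map_zero, map_one, hff, it39, it44, it51, it53, it60, it63, it65, it69, it70, it71, iw]) <;> linear_combination (-l45*w*(f l45) - l41*t44*w*(f l38) - l45*t44*w*(f l36) - l41*t44*w*(f l36)*(f l37)) * h2
  · (try simp only [map_add, map_mul, map_pow, map_zero, map_one, hff, it39, it44, it51, it53, it60, it63, it65, it69, it70, it71, iw]) <;> linear_combination (-l41*t44*w*(f l41) - l45*t39*w*(f l45) - l41*t39*t44*w*(f l38) - l45*t39*t44*w*(f l36) - l41*t39*t44*w*(f l36)*(f l37)) * h2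
  · (try simp only [map_add, map_mul, map_pow, map_zero, map_one, hff, it39, it44, it51, it53, it60, it63, it65, it69, it70, it71, iw]) <;> linear_combination (-t70*w - l54*w*(f l45) - l55*w*(f l41) - l41*t44*w*(f l49) - l41*t51*w*(f l41) - l41*t53*w*(f l38) - l41*w*(f l45)*(f l48) - l45*l48*w*(f l41) - l45*t39*w*(f l52) - l45*t53*w*(f l36) - l49*t44*w*(f l41) - l54*t44*w*(f l36) - 2*l41*t44*w^2*(f l41) - l41*t44*w*(f l36)*(f l48) - l41*t53*w*(f l36)*(f l37) - l45*l48*t39*w*(f l38) - 2*l45*t39*w^2*(f l45) - l49*t39*t44*w*(f l38) - 2*l41*t39*t44*w^2*(f l38) - l45*l48*t39*w*(f l36)*(f l37) - 2*l45*t39*t44*w^2*(f l36) - l49*t39*t44*w*(f l36)*(f l37) - 2*l41*t39*t44*w^2*(f l36)*(f l37)) * h2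

theorem st_LB_1_1 {l36 l37 l38 l45 l48 l49 l52 l54 l55 l66 t39 t44 t51 t53 t60 t63 t65 t69 t70 t71 y : K} (hff : ∀ t, f (f t) = t) (it39 : f t39 = t39) (it44 : f t44 = t44) (it51 : f t51 = t51) (it53 : f t53 = t53) (it60 : f t60 = t60) (it63 : f t63 = t63) (it65 : f t65 = t65) (it69 : f t69 = t69) (it70 : f t70 = t70) (it71 : f t71 = t71) :
    E f 0 0 (y) 0 0 0 0 0 0 0 0 0 0 0 0 0 0 0 0 0 0 0 0 0 * E f (l36) (l37) (l38) (t39) 0 ((t39) * y) (t44) (l45) 0 0 (l48) (l49) (t51) (l52) (t53) (l54) (l55) (t60) (t63) (t65) (l66) (t69) (t70) (t71) = E f (l36) (l37) (l38) (t39) 0 0 (t44) (l45) 0 0 (l48) (l49) (t51) (l52 + y*(f l48)) (t53) (l54) (l55 + t53*y) (t60 + t39*y*(f y)) (t63 + l49*(f y) + y*(f l49)) (t65) (l66 + y*(f l54) + l48*t39*y*(f y)) (t69 + l55*(f y) + y*(f l55) + t53*y*(f y) + t39*t51*y*(f y)) (t70 + t39*t53*y*(f y)) (t71 + l49*t53*(f y) + t53*y*(f l49) + l48*t39*y*(f l48)*(f y)) * E f 0 0 (y) 0 0 0 0 0 0 0 0 0 0 0 0 0 0 0 0 0 0 0 0 0 := by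
  have h2 : (2 : K) = 0 := CharTwo.two_eq_zero
  unfold E
  rw [W_mul, W_mul]
  apply W_congr
  · (try simp only [map_add, map_mul, map_pow, map_zero, map_one, hff, it39, it44, it51, it53, it60, it63, it65, it69, it70, it71]) <;> linear_combination (0 : K) * h2
  · (try simp only [map_add, map_mul, map_pow, map_zero, map_one, hff, it39, it44, it51, it53, it60, it63, it65, it69, it70, it71]) <;> linear_combination (0 : K) * h2
  · (try simp only [map_add, map_mul, map_pow, map_zero, map_one, hff, it39, it44, it51, it53, it60, it63, it65, it69, it70, it71]) <;> linear_combination (0 : K) * h2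
  · (try simp only [map_add, map_mul, map_pow, map_zero, map_one, hff, it39, it44, it51, it53, it60, it63, it65, it69, it70, it71]) <;> linear_combination (0 : K) * h2
  · (try simp only [map_add, map_mul, map_pow, map_zero, map_one, hff, it39, it44, it51, it53, it60, it63, it65, it69, it70, it71]) <;> linear_combination (0 : K) * h2
  · (try simp only [map_add, map_mul, map_pow, map_zero, map_one, hff, it39, it44, it51, it53, it60, it63, it65, it69, it70, it71]) <;> linear_combination (0 : K) * h2
  · (try simp only [map_add, map_mul, map_pow, map_zero, map_one, hff, it39, it44, it51, it53, it60, it63, it65, it69, it70, it71]) <;> linear_combination (0 : K) * h2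
  · (try simp only [map_add, map_mul, map_pow, map_zero, map_one, hff, it39, it44, it51, it53, it60, it63, it65, it69, it70, it71]) <;> linear_combination (0 : K) * h2
  · (try simp only [map_add, map_mul, map_pow, map_zero, map_one, hff, it39, it44, it51, it53, it60, it63, it65, it69, it70, it71]) <;> linear_combination (0 : K) * h2
  · (try simp only [map_add, map_mul, map_pow, map_zero, map_one, hff, it39, it44, it51, it53, it60, it63, it65, it69, it70, it71]) <;> linear_combination (0 : K) * h2
  · (try simp only [map_add, map_mul, map_pow, map_zero, map_one, hff, it39, it44, it51, it53, it60, it63, it65, it69, it70, it71]) <;> linear_combination (0 : K) * h2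
  · (try simp only [map_add, map_mul, map_pow, map_zero, map_one, hff, it39, it44, it51, it53, it60, it63, it65, it69, it70, it71]) <;> linear_combination (0 : K) * h2
  · (try simp only [map_add, map_mul, map_pow, map_zero, map_one, hff, it39, it44, it51, it53, it60, it63, it65, it69, it70, it71]) <;> linear_combination (0 : K) * h2
  · (try simp only [map_add, map_mul, map_pow, map_zero, map_one, hff, it39, it44, it51, it53, it60, it63, it65, it69, it70, it71]) <;> linear_combination (0 : K) * h2
  · (try simp only [map_add, map_mul, map_pow, map_zero, map_one, hff, it39, it44, it51, it53, it60, it63, it65, it69, it70, it71]) <;> linear_combination (0 : K) * h2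
  · (try simp only [map_add, map_mul, map_pow, map_zero, map_one, hff, it39, it44, it51, it53, it60, it63, it65, it69, it70, it71]) <;> linear_combination (0 : K) * h2
  · (try simp only [map_add, map_mul, map_pow, map_zero, map_one, hff, it39, it44, it51, it53, it60, it63, it65, it69, it70, it71]) <;> linear_combination (-y*(f l48)) * h2
  · (try simp only [map_add, map_mul, map_pow, map_zero, map_one, hff, it39, it44, it51, it53, it60, it63, it65, it69, it70, it71]) <;> linear_combination (0 : K) * h2
  · (try simp only [map_add, map_mul, map_pow, map_zero, map_one, hff, it39, it44, it51, it53, it60, it63, it65, it69, it70, it71]) <;> linear_combination (0 : K) * h2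
  · (try simp only [map_add, map_mul, map_pow, map_zero, map_one, hff, it39, it44, it51, it53, it60, it63, it65, it69, it70, it71]) <;> linear_combination (-t53*y) * h2
  · (try simp only [map_add, map_mul, map_pow, map_zero, map_one, hff, it39, it44, it51, it53, it60, it63, it65, it69, it70, it71]) <;> linear_combination (0 : K) * h2
  · (try simp only [map_add, map_mul, map_pow, map_zero, map_one, hff, it39, it44, it51, it53, it60, it63, it65, it69, it70, it71]) <;> linear_combination (0 : K) * h2
  · (try simp only [map_add, map_mul, map_pow, map_zero, map_one, hff, it39, it44, it51, it53, it60, it63, it65, it69, it70, it71]) <;> linear_combination (t39*(f y)) * h2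
  · (try simp only [map_add, map_mul, map_pow, map_zero, map_one, hff, it39, it44, it51, it53, it60, it63, it65, it69, it70, it71]) <;> linear_combination (0 : K) * h2
  · (try simp only [map_add, map_mul, map_pow, map_zero, map_one, hff, it39, it44, it51, it53, it60, it63, it65, it69, it70, it71]) <;> linear_combination (0 : K) * h2
  · (try simp only [map_add, map_mul, map_pow, map_zero, map_one, hff, it39, it44, it51, it53, it60, it63, it65, it69, it70, it71]) <;> linear_combination (0 : K) * h2
  · (try simp only [map_add, map_mul, map_pow, map_zero, map_one, hff, it39, it44, it51, it53, it60, it63, it65, it69, it70, it71]) <;> linear_combination (0 : K) * h2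
  · (try simp only [map_add, map_mul, map_pow, map_zero, map_one, hff, it39, it44, it51, it53, it60, it63, it65, it69, it70, it71]) <;> linear_combination (-y*(f l49) - y*(f l36)*(f l48)) * h2
  · (try simp only [map_add, map_mul, map_pow, map_zero, map_one, hff, it39, it44, it51, it53, it60, it63, it65, it69, it70, it71]) <;> linear_combination (l48*t39*(f y)) * h2
  · (try simp only [map_add, map_mul, map_pow, map_zero, map_one, hff, it39, it44, it51, it53, it60, it63, it65, it69, it70, it71]) <;> linear_combination (l49*t39*(f y)) * h2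
  · (try simp only [map_add, map_mul, map_pow, map_zero, map_one, hff, it39, it44, it51, it53, it60, it63, it65, it69, it70, it71]) <;> linear_combination (-y*(f l54) - t53*y*(f l36)) * h2
  · (try simp only [map_add, map_mul, map_pow, map_zero, map_one, hff, it39, it44, it51, it53, it60, it63, it65, it69, it70, it71]) <;> linear_combination (t39*t51*(f y)) * h2
  · (try simp only [map_add, map_mul, map_pow, map_zero, map_one, hff, it39, it44, it51, it53, it60, it63, it65, it69, it70, it71]) <;> linear_combination (l52*t39*(f y)) * h2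
  · (try simp only [map_add, map_mul, map_pow, map_zero, map_one, hff, it39, it44, it51, it53, it60, it63, it65, it69, it70, it71]) <;> linear_combination (-y*(f l55) - t53*y*(f l38) - t53*y*(f y) - y*(f l45)*(f l48) - t44*y*(f l36)*(f l48) - t53*y*(f l36)*(f l37)) * h2
  · (try simp only [map_add, map_mul, map_pow, map_zero, map_one, hff, it39, it44, it51, it53, it60, it63, it65, it69, it70, it71]) <;> linear_combination (l55*t39*(f y)) * h2
  · (try simp only [map_add, map_mul, map_pow, map_zero, map_one, hff, it39, it44, it51, it53, it60, it63, it65, it69, it70, it71]) <;> linear_combination (-t53*y*(f l49) + l48*l52*t39*(f y) + l49*t39*t51*(f y) - t53*y*(f l36)*(f l48)) * h2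

theorem st_LB_1_1_1 {l36 l37 l38 l45 l48 l49 l52 l54 l55 l66 t39 t44 t51 t60 t63 t65 t69 t70 t71 w : K} (hff : ∀ t, f (f t) = t) (it39 : f t39 = t39) (it44 : f t44 = t44) (it51 : f t51 = t51) (it60 : f t60 = t60) (it63 : f t63 = t63) (it65 : f t65 = t65) (it69 : f t69 = t69) (it70 : f t70 = t70) (it71 : f t71 = t71) (iw : f w = w) :
    E f 0 0 0 0 0 0 0 0 0 0 0 0 (w) 0 0 0 0 0 0 0 0 0 0 0 * E f (l36) (l37) (l38) (t39) 0 0 (t44) (l45) 0 0 (l48) (l49) (t51) (l52) ((t39) * w) (l54) (l55) (t60) (t63) (t65) (l66) (t69) (t70) (t71) = E f (l36) (l37) (l38) (t39) 0 0 (t44) (l45) 0 0 (l48) (l49) (t51) (l52 + l36*w) 0 (l54 + l36*t39*w) (l55) (t60) (t63 + l36*w*(f l36)) (t65 + l36*t39*w*(f l36)) (l66) (t69 + t60*w + l36*w*(f l45) + l45*w*(f l36) + l36*t44*w*(f l36)) (t70 + l36*t39*w*(f l45) + l45*t39*w*(f l36) + l36*t39*t44*w*(f l36)) (t71 + t65*w + l36*t39*w*(f l52) + l52*t39*w*(f l36) + l36*t39*t51*w*(f l36) + l36*t39*w^2*(f l36)) * E f 0 0 0 0 0 0 0 0 0 0 0 0 (w) 0 0 0 0 0 0 0 0 0 0 0 := by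
  have h2 : (2 : K) = 0 := CharTwo.two_eq_zero
  unfold E
  rw [W_mul, W_mul]
  apply W_congr
  · (try simp only [map_add, map_mul, map_pow, map_zero, map_one, hff, it39, it44, it51, it60, it63, it65, it69, it70, it71, iw]) <;> linear_combination (0 : K) * h2
  · (try simp only [map_add, map_mul, map_pow, map_zero, map_one, hff, it39, it44, it51, it60, it63, it65, it69, it70, it71, iw]) <;> linear_combination (0 : K) * h2
  · (try simp only [map_add, map_mul, map_pow, map_zero, map_one, hff, it39, it44, it51, it60, it63, it65, it69, it70, it71, iw]) <;> linear_combination (0 : K) * h2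
  · (try simp only [map_add, map_mul, map_pow, map_zero, map_one, hff, it39, it44, it51, it60, it63, it65, it69, it70, it71, iw]) <;> linear_combination (0 : K) * h2
  · (try simp only [map_add, map_mul, map_pow, map_zero, map_one, hff, it39, it44, it51, it60, it63, it65, it69, it70, it71, iw]) <;> linear_combination (0 : K) * h2
  · (try simp only [map_add, map_mul, map_pow, map_zero, map_one, hff, it39, it44, it51, it60, it63, it65, it69, it70, it71, iw]) <;> linear_combination (0 : K) * h2
  · (try simp only [map_add, map_mul, map_pow, map_zero, map_one, hff, it39, it44, it51, it60, it63, it65, it69, it70, it71, iw]) <;> linear_combination (0 : K) * h2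
  · (try simp only [map_add, map_mul, map_pow, map_zero, map_one, hff, it39, it44, it51, it60, it63, it65, it69, it70, it71, iw]) <;> linear_combination (0 : K) * h2
  · (try simp only [map_add, map_mul, map_pow, map_zero, map_one, hff, it39, it44, it51, it60, it63, it65, it69, it70, it71, iw]) <;> linear_combination (0 : K) * h2
  · (try simp only [map_add, map_mul, map_pow, map_zero, map_one, hff, it39, it44, it51, it60, it63, it65, it69, it70, it71, iw]) <;> linear_combination (0 : K) * h2
  · (try simp only [map_add, map_mul, map_pow, map_zero, map_one, hff, it39, it44, it51, it60, it63, it65, it69, it70, it71, iw]) <;> linear_combination (0 : K) * h2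
  · (try simp only [map_add, map_mul, map_pow, map_zero, map_one, hff, it39, it44, it51, it60, it63, it65, it69, it70, it71, iw]) <;> linear_combination (0 : K) * h2
  · (try simp only [map_add, map_mul, map_pow, map_zero, map_one, hff, it39, it44, it51, it60, it63, it65, it69, it70, it71, iw]) <;> linear_combination (0 : K) * h2
  · (try simp only [map_add, map_mul, map_pow, map_zero, map_one, hff, it39, it44, it51, it60, it63, it65, it69, it70, it71, iw]) <;> linear_combination (0 : K) * h2
  · (try simp only [map_add, map_mul, map_pow, map_zero, map_one, hff, it39, it44, it51, it60, it63, it65, it69, it70, it71, iw]) <;> linear_combination (0 : K) * h2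
  · (try simp only [map_add, map_mul, map_pow, map_zero, map_one, hff, it39, it44, it51, it60, it63, it65, it69, it70, it71, iw]) <;> linear_combination (0 : K) * h2
  · (try simp only [map_add, map_mul, map_pow, map_zero, map_one, hff, it39, it44, it51, it60, it63, it65, it69, it70, it71, iw]) <;> linear_combination (0 : K) * h2
  · (try simp only [map_add, map_mul, map_pow, map_zero, map_one, hff, it39, it44, it51, it60, it63, it65, it69, it70, it71, iw]) <;> linear_combination (t39*w) * h2
  · (try simp only [map_add, map_mul, map_pow, map_zero, map_one, hff, it39, it44, it51, it60, it63, it65, it69, it70, it71, iw]) <;> linear_combination (0 : K) * h2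
  · (try simp only [map_add, map_mul, map_pow, map_zero, map_one, hff, it39, it44, it51, it60, it63, it65, it69, it70, it71, iw]) <;> linear_combination (0 : K) * h2
  · (try simp only [map_add, map_mul, map_pow, map_zero, map_one, hff, it39, it44, it51, it60, it63, it65, it69, it70, it71, iw]) <;> linear_combination (0 : K) * h2
  · (try simp only [map_add, map_mul, map_pow, map_zero, map_one, hff, it39, it44, it51, it60, it63, it65, it69, it70, it71, iw]) <;> linear_combination (0 : K) * h2
  · (try simp only [map_add, map_mul, map_pow, map_zero, map_one, hff, it39, it44, it51, it60, it63, it65, it69, it70, it71, iw]) <;> linear_combination (0 : K) * h2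
  · (try simp only [map_add, map_mul, map_pow, map_zero, map_one, hff, it39, it44, it51, it60, it63, it65, it69, it70, it71, iw]) <;> linear_combination (0 : K) * h2
  · (try simp only [map_add, map_mul, map_pow, map_zero, map_one, hff, it39, it44, it51, it60, it63, it65, it69, it70, it71, iw]) <;> linear_combination (0 : K) * h2
  · (try simp only [map_add, map_mul, map_pow, map_zero, map_one, hff, it39, it44, it51, it60, it63, it65, it69, it70, it71, iw]) <;> linear_combination (0 : K) * h2
  · (try simp only [map_add, map_mul, map_pow, map_zero, map_one, hff, it39, it44, it51, it60, it63, it65, it69, it70, it71, iw]) <;> linear_combination (-w*(f l36)) * h2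
  · (try simp only [map_add, map_mul, map_pow, map_zero, map_one, hff, it39, it44, it51, it60, it63, it65, it69, it70, it71, iw]) <;> linear_combination (-l36*w*(f l36)) * h2
  · (try simp only [map_add, map_mul, map_pow, map_zero, map_one, hff, it39, it44, it51, it60, it63, it65, it69, it70, it71, iw]) <;> linear_combination (0 : K) * h2
  · (try simp only [map_add, map_mul, map_pow, map_zero, map_one, hff, it39, it44, it51, it60, it63, it65, it69, it70, it71, iw]) <;> linear_combination (-l36*t39*w*(f l36)) * h2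
  · (try simp only [map_add, map_mul, map_pow, map_zero, map_one, hff, it39, it44, it51, it60, it63, it65, it69, it70, it71, iw]) <;> linear_combination (0 : K) * h2
  · (try simp only [map_add, map_mul, map_pow, map_zero, map_one, hff, it39, it44, it51, it60, it63, it65, it69, it70, it71, iw]) <;> linear_combination (0 : K) * h2
  · (try simp only [map_add, map_mul, map_pow, map_zero, map_one, hff, it39, it44, it51, it60, it63, it65, it69, it70, it71, iw]) <;> linear_combination (-l36*t39*w*(f l38) - l36*t39*w*(f l36)*(f l37)) * h2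
  · (try simp only [map_add, map_mul, map_pow, map_zero, map_one, hff, it39, it44, it51, it60, it63, it65, it69, it70, it71, iw]) <;> linear_combination (-t60*w - l36*w*(f l45) - l45*w*(f l36) - l36*t44*w*(f l36)) * h2
  · (try simp only [map_add, map_mul, map_pow, map_zero, map_one, hff, it39, it44, it51, it60, it63, it65, it69, it70, it71, iw]) <;> linear_combination (-l36*t39*w*(f l45) - l36*t39*t44*w*(f l36)) * h2
  · (try simp only [map_add, map_mul, map_pow, map_zero, map_one, hff, it39, it44, it51, it60, it63, it65, it69, it70, it71, iw]) <;> linear_combination (-t65*w - l54*w*(f l36) - l36*t39*w*(f l52) - l36*l48*t39*w*(f l38) - l36*t39*t51*w*(f l36) - 2*l36*t39*w^2*(f l36) - l36*l48*t39*w*(f l36)*(f l37)) * h2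

theorem st_LB_1_1_1_1 {l36 l37 l38 l45 l48 l49 l52 l55 l66 t39 t44 t51 t60 t63 t65 t69 t70 t71 y : K} (hff : ∀ t, f (f t) = t) (it39 : f t39 = t39) (it44 : f t44 = t44) (it51 : f t51 = t51) (it60 : f t60 = t60) (it63 : f t63 = t63) (it65 : f t65 = t65) (it69 : f t69 = t69) (it70 : f t70 = t70) (it71 : f t71 = t71) :
    E f 0 0 0 0 0 0 0 0 0 0 0 0 0 (y) 0 0 0 0 0 0 0 0 0 0 * E f (l36) (l37) (l38) (t39) 0 0 (t44) (l45) 0 0 (l48) (l49) (t51) (l52) 0 ((t39) * y) (l55) (t60) (t63) (t65) (l66) (t69) (t70) (t71) = E f (l36) (l37) (l38) (t39) 0 0 (t44) (l45) 0 0 (l48) (l49) (t51) (l52) 0 0 (l55) (t60) (t63 + l36*(f y) + y*(f l36)) (t65 + l36*t39*(f y) + t39*y*(f l36)) (l66) (t69 + l45*(f y) + y*(f l45) + l36*t44*(f y) + t44*y*(f l36)) (t70 + l45*t39*(f y) + t39*y*(f l45) + l36*t39*t44*(f y) + t39*t44*y*(f l36)) (t71 + l52*t39*(f y) + t39*y*(f l52) + t39*y*(f y) + l36*t39*t51*(f y) + t39*t51*y*(f l36)) * E f 0 0 0 0 0 0 0 0 0 0 0 0 0 (y) 0 0 0 0 0 0 0 0 0 0 := by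
  have h2 : (2 : K) = 0 := CharTwo.two_eq_zero
  unfold E
  rw [W_mul, W_mul]
  apply W_congr
  · (try simp only [map_add, map_mul, map_pow, map_zero, map_one, hff, it39, it44, it51, it60, it63, it65, it69, it70, it71]) <;> linear_combination (0 : K) * h2
  · (try simp only [map_add, map_mul, map_pow, map_zero, map_one, hff, it39, it44, it51, it60, it63, it65, it69, it70, it71]) <;> linear_combination (0 : K) * h2
  · (try simp only [map_add, map_mul, map_pow, map_zero, map_one, hff, it39, it44, it51, it60, it63, it65, it69, it70, it71]) <;> linear_combination (0 : K) * h2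
  · (try simp only [map_add, map_mul, map_pow, map_zero, map_one, hff, it39, it44, it51, it60, it63, it65, it69, it70, it71]) <;> linear_combination (0 : K) * h2
  · (try simp only [map_add, map_mul, map_pow, map_zero, map_one, hff, it39, it44, it51, it60, it63, it65, it69, it70, it71]) <;> linear_combination (0 : K) * h2
  · (try simp only [map_add, map_mul, map_pow, map_zero, map_one, hff, it39, it44, it51, it60, it63, it65, it69, it70, it71]) <;> linear_combination (0 : K) * h2
  · (try simp only [map_add, map_mul, map_pow, map_zero, map_one, hff, it39, it44, it51, it60, it63, it65, it69, it70, it71]) <;> linear_combination (0 : K) * h2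
  · (try simp only [map_add, map_mul, map_pow, map_zero, map_one, hff, it39, it44, it51, it60, it63, it65, it69, it70, it71]) <;> linear_combination (0 : K) * h2
  · (try simp only [map_add, map_mul, map_pow, map_zero, map_one, hff, it39, it44, it51, it60, it63, it65, it69, it70, it71]) <;> linear_combination (0 : K) * h2
  · (try simp only [map_add, map_mul, map_pow, map_zero, map_one, hff, it39, it44, it51, it60, it63, it65, it69, it70, it71]) <;> linear_combination (0 : K) * h2
  · (try simp only [map_add, map_mul, map_pow, map_zero, map_one, hff, it39, it44, it51, it60, it63, it65, it69, it70, it71]) <;> linear_combination (0 : K) * h2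
  · (try simp only [map_add, map_mul, map_pow, map_zero, map_one, hff, it39, it44, it51, it60, it63, it65, it69, it70, it71]) <;> linear_combination (0 : K) * h2
  · (try simp only [map_add, map_mul, map_pow, map_zero, map_one, hff, it39, it44, it51, it60, it63, it65, it69, it70, it71]) <;> linear_combination (0 : K) * h2
  · (try simp only [map_add, map_mul, map_pow, map_zero, map_one, hff, it39, it44, it51, it60, it63, it65, it69, it70, it71]) <;> linear_combination (0 : K) * h2
  · (try simp only [map_add, map_mul, map_pow, map_zero, map_one, hff, it39, it44, it51, it60, it63, it65, it69, it70, it71]) <;> linear_combination (0 : K) * h2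
  · (try simp only [map_add, map_mul, map_pow, map_zero, map_one, hff, it39, it44, it51, it60, it63, it65, it69, it70, it71]) <;> linear_combination (0 : K) * h2
  · (try simp only [map_add, map_mul, map_pow, map_zero, map_one, hff, it39, it44, it51, it60, it63, it65, it69, it70, it71]) <;> linear_combination (0 : K) * h2
  · (try simp only [map_add, map_mul, map_pow, map_zero, map_one, hff, it39, it44, it51, it60, it63, it65, it69, it70, it71]) <;> linear_combination (0 : K) * h2
  · (try simp only [map_add, map_mul, map_pow, map_zero, map_one, hff, it39, it44, it51, it60, it63, it65, it69, it70, it71]) <;> linear_combination (t39*y) * h2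
  · (try simp only [map_add, map_mul, map_pow, map_zero, map_one, hff, it39, it44, it51, it60, it63, it65, it69, it70, it71]) <;> linear_combination (0 : K) * h2
  · (try simp only [map_add, map_mul, map_pow, map_zero, map_one, hff, it39, it44, it51, it60, it63, it65, it69, it70, it71]) <;> linear_combination (0 : K) * h2
  · (try simp only [map_add, map_mul, map_pow, map_zero, map_one, hff, it39, it44, it51, it60, it63, it65, it69, it70, it71]) <;> linear_combination (0 : K) * h2
  · (try simp only [map_add, map_mul, map_pow, map_zero, map_one, hff, it39, it44, it51, it60, it63, it65, it69, it70, it71]) <;> linear_combination (0 : K) * h2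
  · (try simp only [map_add, map_mul, map_pow, map_zero, map_one, hff, it39, it44, it51, it60, it63, it65, it69, it70, it71]) <;> linear_combination (0 : K) * h2
  · (try simp only [map_add, map_mul, map_pow, map_zero, map_one, hff, it39, it44, it51, it60, it63, it65, it69, it70, it71]) <;> linear_combination (0 : K) * h2
  · (try simp only [map_add, map_mul, map_pow, map_zero, map_one, hff, it39, it44, it51, it60, it63, it65, it69, it70, it71]) <;> linear_combination (0 : K) * h2
  · (try simp only [map_add, map_mul, map_pow, map_zero, map_one, hff, it39, it44, it51, it60, it63, it65, it69, it70, it71]) <;> linear_combination (0 : K) * h2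
  · (try simp only [map_add, map_mul, map_pow, map_zero, map_one, hff, it39, it44, it51, it60, it63, it65, it69, it70, it71]) <;> linear_combination (-y*(f l36)) * h2
  · (try simp only [map_add, map_mul, map_pow, map_zero, map_one, hff, it39, it44, it51, it60, it63, it65, it69, it70, it71]) <;> linear_combination (t39*(f y)) * h2
  · (try simp only [map_add, map_mul, map_pow, map_zero, map_one, hff, it39, it44, it51, it60, it63, it65, it69, it70, it71]) <;> linear_combination (0 : K) * h2
  · (try simp only [map_add, map_mul, map_pow, map_zero, map_one, hff, it39, it44, it51, it60, it63, it65, it69, it70, it71]) <;> linear_combination (0 : K) * h2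
  · (try simp only [map_add, map_mul, map_pow, map_zero, map_one, hff, it39, it44, it51, it60, it63, it65, it69, it70, it71]) <;> linear_combination (t39*(f l37)*(f y)) * h2
  · (try simp only [map_add, map_mul, map_pow, map_zero, map_one, hff, it39, it44, it51, it60, it63, it65, it69, it70, it71]) <;> linear_combination (l36*t39*(f l37)*(f y)) * h2
  · (try simp only [map_add, map_mul, map_pow, map_zero, map_one, hff, it39, it44, it51, it60, it63, it65, it69, it70, it71]) <;> linear_combination (-y*(f l45) - t44*y*(f l36)) * h2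
  · (try simp only [map_add, map_mul, map_pow, map_zero, map_one, hff, it39, it44, it51, it60, it63, it65, it69, it70, it71]) <;> linear_combination (0 : K) * h2
  · (try simp only [map_add, map_mul, map_pow, map_zero, map_one, hff, it39, it44, it51, it60, it63, it65, it69, it70, it71]) <;> linear_combination (l49*t39*(f l37)*(f y) + l36*l48*t39*(f l37)*(f y)) * h2

theorem st_LB_1_1_1_1_1 {l36 l37 l38 l45 l48 l49 l52 l55 l66 t39 t44 t51 t60 t63 t69 t70 t71 w : K} (hff : ∀ t, f (f t) = t) (it39 : f t39 = t39) (it44 : f t44 = t44) (it51 : f t51 = t51) (it60 : f t60 = t60) (it63 : f t63 = t63) (it69 : f t69 = t69) (it70 : f t70 = t70) (it71 : f t71 = t71) (iw : f w = w) :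
    E f 0 0 0 0 0 0 0 0 0 0 0 0 0 0 0 0 0 0 (w) 0 0 0 0 0 * E f (l36) (l37) (l38) (t39) 0 0 (t44) (l45) 0 0 (l48) (l49) (t51) (l52) 0 0 (l55) (t60) (t63) ((t39) * w) (l66) (t69) (t70) (t71) = E f (l36) (l37) (l38) (t39) 0 0 (t44) (l45) 0 0 (l48) (l49) (t51) (l52) 0 0 (l55) (t60) (t63) 0 (l66) (t69 + t44*w) (t70 + t39*t44*w) (t71 + t39*t51*w) * E f 0 0 0 0 0 0 0 0 0 0 0 0 0 0 0 0 0 0 (w) 0 0 0 0 0 := by
  have h2 : (2 : K) = 0 := CharTwo.two_eq_zero
  unfold E
  rw [W_mul, W_mul]
  apply W_congr
  · (try simp only [map_add, map_mul, map_pow, map_zero, map_one, hff, it39, it44, it51, it60, it63, it69, it70, it71, iw]) <;> linear_combination (0 : K) * h2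
  · (try simp only [map_add, map_mul, map_pow, map_zero, map_one, hff, it39, it44, it51, it60, it63, it69, it70, it71, iw]) <;> linear_combination (0 : K) * h2
  · (try simp only [map_add, map_mul, map_pow, map_zero, map_one, hff, it39, it44, it51, it60, it63, it69, it70, it71, iw]) <;> linear_combination (0 : K) * h2
  · (try simp only [map_add, map_mul, map_pow, map_zero, map_one, hff, it39, it44, it51, it60, it63, it69, it70, it71, iw]) <;> linear_combination (0 : K) * h2
  · (try simp only [map_add, map_mul, map_pow, map_zero, map_one, hff, it39, it44, it51, it60, it63, it69, it70, it71, iw]) <;> linear_combination (0 : K) * h2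
  · (try simp only [map_add, map_mul, map_pow, map_zero, map_one, hff, it39, it44, it51, it60, it63, it69, it70, it71, iw]) <;> linear_combination (0 : K) * h2
  · (try simp only [map_add, map_mul, map_pow, map_zero, map_one, hff, it39, it44, it51, it60, it63, it69, it70, it71, iw]) <;> linear_combination (0 : K) * h2
  · (try simp only [map_add, map_mul, map_pow, map_zero, map_one, hff, it39, it44, it51, it60, it63, it69, it70, it71, iw]) <;> linear_combination (0 : K) * h2
  · (try simp only [map_add, map_mul, map_pow, map_zero, map_one, hff, it39, it44, it51, it60, it63, it69, it70, it71, iw]) <;> linear_combination (0 : K) * h2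
  · (try simp only [map_add, map_mul, map_pow, map_zero, map_one, hff, it39, it44, it51, it60, it63, it69, it70, it71, iw]) <;> linear_combination (0 : K) * h2
  · (try simp only [map_add, map_mul, map_pow, map_zero, map_one, hff, it39, it44, it51, it60, it63, it69, it70, it71, iw]) <;> linear_combination (0 : K) * h2
  · (try simp only [map_add, map_mul, map_pow, map_zero, map_one, hff, it39, it44, it51, it60, it63, it69, it70, it71, iw]) <;> linear_combination (0 : K) * h2
  · (try simp only [map_add, map_mul, map_pow, map_zero, map_one, hff, it39, it44, it51, it60, it63, it69, it70, it71, iw]) <;> linear_combination (0 : K) * h2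
  · (try simp only [map_add, map_mul, map_pow, map_zero, map_one, hff, it39, it44, it51, it60, it63, it69, it70, it71, iw]) <;> linear_combination (0 : K) * h2
  · (try simp only [map_add, map_mul, map_pow, map_zero, map_one, hff, it39, it44, it51, it60, it63, it69, it70, it71, iw]) <;> linear_combination (0 : K) * h2
  · (try simp only [map_add, map_mul, map_pow, map_zero, map_one, hff, it39, it44, it51, it60, it63, it69, it70, it71, iw]) <;> linear_combination (0 : K) * h2
  · (try simp only [map_add, map_mul, map_pow, map_zero, map_one, hff, it39, it44, it51, it60, it63, it69, it70, it71, iw]) <;> linear_combination (0 : K) * h2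
  · (try simp only [map_add, map_mul, map_pow, map_zero, map_one, hff, it39, it44, it51, it60, it63, it69, it70, it71, iw]) <;> linear_combination (0 : K) * h2
  · (try simp only [map_add, map_mul, map_pow, map_zero, map_one, hff, it39, it44, it51, it60, it63, it69, it70, it71, iw]) <;> linear_combination (0 : K) * h2
  · (try simp only [map_add, map_mul, map_pow, map_zero, map_one, hff, it39, it44, it51, it60, it63, it69, it70, it71, iw]) <;> linear_combination (0 : K) * h2
  · (try simp only [map_add, map_mul, map_pow, map_zero, map_one, hff, it39, it44, it51, it60, it63, it69, it70, it71, iw]) <;> linear_combination (0 : K) * h2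
  · (try simp only [map_add, map_mul, map_pow, map_zero, map_one, hff, it39, it44, it51, it60, it63, it69, it70, it71, iw]) <;> linear_combination (0 : K) * h2
  · (try simp only [map_add, map_mul, map_pow, map_zero, map_one, hff, it39, it44, it51, it60, it63, it69, it70, it71, iw]) <;> linear_combination (0 : K) * h2
  · (try simp only [map_add, map_mul, map_pow, map_zero, map_one, hff, it39, it44, it51, it60, it63, it69, it70, it71, iw]) <;> linear_combination (0 : K) * h2
  · (try simp only [map_add, map_mul, map_pow, map_zero, map_one, hff, it39, it44, it51, it60, it63, it69, it70, it71, iw]) <;> linear_combination (0 : K) * h2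
  · (try simp only [map_add, map_mul, map_pow, map_zero, map_one, hff, it39, it44, it51, it60, it63, it69, it70, it71, iw]) <;> linear_combination (0 : K) * h2
  · (try simp only [map_add, map_mul, map_pow, map_zero, map_one, hff, it39, it44, it51, it60, it63, it69, it70, it71, iw]) <;> linear_combination (0 : K) * h2
  · (try simp only [map_add, map_mul, map_pow, map_zero, map_one, hff, it39, it44, it51, it60, it63, it69, it70, it71, iw]) <;> linear_combination (0 : K) * h2
  · (try simp only [map_add, map_mul, map_pow, map_zero, map_one, hff, it39, it44, it51, it60, it63, it69, it70, it71, iw]) <;> linear_combination (0 : K) * h2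
  · (try simp only [map_add, map_mul, map_pow, map_zero, map_one, hff, it39, it44, it51, it60, it63, it69, it70, it71, iw]) <;> linear_combination (t39*w) * h2
  · (try simp only [map_add, map_mul, map_pow, map_zero, map_one, hff, it39, it44, it51, it60, it63, it69, it70, it71, iw]) <;> linear_combination (0 : K) * h2
  · (try simp only [map_add, map_mul, map_pow, map_zero, map_one, hff, it39, it44, it51, it60, it63, it69, it70, it71, iw]) <;> linear_combination (0 : K) * h2
  · (try simp only [map_add, map_mul, map_pow, map_zero, map_one, hff, it39, it44, it51, it60, it63, it69, it70, it71, iw]) <;> linear_combination (t39*w*(f l37)) * h2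
  · (try simp only [map_add, map_mul, map_pow, map_zero, map_one, hff, it39, it44, it51, it60, it63, it69, it70, it71, iw]) <;> linear_combination (0 : K) * h2
  · (try simp only [map_add, map_mul, map_pow, map_zero, map_one, hff, it39, it44, it51, it60, it63, it69, it70, it71, iw]) <;> linear_combination (0 : K) * h2
  · (try simp only [map_add, map_mul, map_pow, map_zero, map_one, hff, it39, it44, it51, it60, it63, it69, it70, it71, iw]) <;> linear_combination (l48*t39*w*(f l37)) * h2

theorem st_LB_1_1_1_1_1_1 {l36 l37 l38 l45 l48 l49 l52 l55 l66 t39 t44 t51 t60 t63 t69 t71 w : K} (hff : ∀ t, f (f t) = t) (it39 : f t39 = t39) (it44 : f t44 = t44) (it51 : f t51 = t51) (it60 : f t60 = t60) (it63 : f t63 = t63) (it69 : f t69 = t69) (it71 : f t71 = t71) (iw : f w = w) :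
    E f 0 0 0 0 0 0 0 0 0 0 0 0 0 0 0 0 0 0 0 0 0 (w) 0 0 * E f (l36) (l37) (l38) (t39) 0 0 (t44) (l45) 0 0 (l48) (l49) (t51) (l52) 0 0 (l55) (t60) (t63) 0 (l66) (t69) ((t39) * w) (t71) = E f (l36) (l37) (l38) (t39) 0 0 (t44) (l45) 0 0 (l48) (l49) (t51) (l52) 0 0 (l55) (t60) (t63) 0 (l66) (t69) 0 (t71) * E f 0 0 0 0 0 0 0 0 0 0 0 0 0 0 0 0 0 0 0 0 0 (w) 0 0 := by
  have h2 : (2 : K) = 0 := CharTwo.two_eq_zero
  unfold E
  rw [W_mul, W_mul]
  apply W_congr
  · (try simp only [map_add, map_mul, map_pow, map_zero, map_one, hff, it39, it44, it51, it60, it63, it69, it71, iw]) <;> linear_combination (0 : K) * h2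
  · (try simp only [map_add, map_mul, map_pow, map_zero, map_one, hff, it39, it44, it51, it60, it63, it69, it71, iw]) <;> linear_combination (0 : K) * h2
  · (try simp only [map_add, map_mul, map_pow, map_zero, map_one, hff, it39, it44, it51, it60, it63, it69, it71, iw]) <;> linear_combination (0 : K) * h2
  · (try simp only [map_add, map_mul, map_pow, map_zero, map_one, hff, it39, it44, it51, it60, it63, it69, it71, iw]) <;> linear_combination (0 : K) * h2
  · (try simp only [map_add, map_mul, map_pow, map_zero, map_one, hff, it39, it44, it51, it60, it63, it69, it71, iw]) <;> linear_combination (0 : K) * h2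
  · (try simp only [map_add, map_mul, map_pow, map_zero, map_one, hff, it39, it44, it51, it60, it63, it69, it71, iw]) <;> linear_combination (0 : K) * h2
  · (try simp only [map_add, map_mul, map_pow, map_zero, map_one, hff, it39, it44, it51, it60, it63, it69, it71, iw]) <;> linear_combination (0 : K) * h2
  · (try simp only [map_add, map_mul, map_pow, map_zero, map_one, hff, it39, it44, it51, it60, it63, it69, it71, iw]) <;> linear_combination (0 : K) * h2
  · (try simp only [map_add, map_mul, map_pow, map_zero, map_one, hff, it39, it44, it51, it60, it63, it69, it71, iw]) <;> linear_combination (0 : K) * h2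
  · (try simp only [map_add, map_mul, map_pow, map_zero, map_one, hff, it39, it44, it51, it60, it63, it69, it71, iw]) <;> linear_combination (0 : K) * h2
  · (try simp only [map_add, map_mul, map_pow, map_zero, map_one, hff, it39, it44, it51, it60, it63, it69, it71, iw]) <;> linear_combination (0 : K) * h2
  · (try simp only [map_add, map_mul, map_pow, map_zero, map_one, hff, it39, it44, it51, it60, it63, it69, it71, iw]) <;> linear_combination (0 : K) * h2
  · (try simp only [map_add, map_mul, map_pow, map_zero, map_one, hff, it39, it44, it51, it60, it63, it69, it71, iw]) <;> linear_combination (0 : K) * h2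
  · (try simp only [map_add, map_mul, map_pow, map_zero, map_one, hff, it39, it44, it51, it60, it63, it69, it71, iw]) <;> linear_combination (0 : K) * h2
  · (try simp only [map_add, map_mul, map_pow, map_zero, map_one, hff, it39, it44, it51, it60, it63, it69, it71, iw]) <;> linear_combination (0 : K) * h2
  · (try simp only [map_add, map_mul, map_pow, map_zero, map_one, hff, it39, it44, it51, it60, it63, it69, it71, iw]) <;> linear_combination (0 : K) * h2
  · (try simp only [map_add, map_mul, map_pow, map_zero, map_one, hff, it39, it44, it51, it60, it63, it69, it71, iw]) <;> linear_combination (0 : K) * h2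
  · (try simp only [map_add, map_mul, map_pow, map_zero, map_one, hff, it39, it44, it51, it60, it63, it69, it71, iw]) <;> linear_combination (0 : K) * h2
  · (try simp only [map_add, map_mul, map_pow, map_zero, map_one, hff, it39, it44, it51, it60, it63, it69, it71, iw]) <;> linear_combination (0 : K) * h2
  · (try simp only [map_add, map_mul, map_pow, map_zero, map_one, hff, it39, it44, it51, it60, it63, it69, it71, iw]) <;> linear_combination (0 : K) * h2
  · (try simp only [map_add, map_mul, map_pow, map_zero, map_one, hff, it39, it44, it51, it60, it63, it69, it71, iw]) <;> linear_combination (0 : K) * h2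
  · (try simp only [map_add, map_mul, map_pow, map_zero, map_one, hff, it39, it44, it51, it60, it63, it69, it71, iw]) <;> linear_combination (0 : K) * h2
  · (try simp only [map_add, map_mul, map_pow, map_zero, map_one, hff, it39, it44, it51, it60, it63, it69, it71, iw]) <;> linear_combination (0 : K) * h2
  · (try simp only [map_add, map_mul, map_pow, map_zero, map_one, hff, it39, it44, it51, it60, it63, it69, it71, iw]) <;> linear_combination (0 : K) * h2
  · (try simp only [map_add, map_mul, map_pow, map_zero, map_one, hff, it39, it44, it51, it60, it63, it69, it71, iw]) <;> linear_combination (0 : K) * h2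
  · (try simp only [map_add, map_mul, map_pow, map_zero, map_one, hff, it39, it44, it51, it60, it63, it69, it71, iw]) <;> linear_combination (0 : K) * h2
  · (try simp only [map_add, map_mul, map_pow, map_zero, map_one, hff, it39, it44, it51, it60, it63, it69, it71, iw]) <;> linear_combination (0 : K) * h2
  · (try simp only [map_add, map_mul, map_pow, map_zero, map_one, hff, it39, it44, it51, it60, it63, it69, it71, iw]) <;> linear_combination (0 : K) * h2
  · (try simp only [map_add, map_mul, map_pow, map_zero, map_one, hff, it39, it44, it51, it60, it63, it69, it71, iw]) <;> linear_combination (0 : K) * h2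
  · (try simp only [map_add, map_mul, map_pow, map_zero, map_one, hff, it39, it44, it51, it60, it63, it69, it71, iw]) <;> linear_combination (0 : K) * h2
  · (try simp only [map_add, map_mul, map_pow, map_zero, map_one, hff, it39, it44, it51, it60, it63, it69, it71, iw]) <;> linear_combination (0 : K) * h2
  · (try simp only [map_add, map_mul, map_pow, map_zero, map_one, hff, it39, it44, it51, it60, it63, it69, it71, iw]) <;> linear_combination (0 : K) * h2
  · (try simp only [map_add, map_mul, map_pow, map_zero, map_one, hff, it39, it44, it51, it60, it63, it69, it71, iw]) <;> linear_combination (0 : K) * h2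
  · (try simp only [map_add, map_mul, map_pow, map_zero, map_one, hff, it39, it44, it51, it60, it63, it69, it71, iw]) <;> linear_combination (0 : K) * h2
  · (try simp only [map_add, map_mul, map_pow, map_zero, map_one, hff, it39, it44, it51, it60, it63, it69, it71, iw]) <;> linear_combination (t39*w) * h2
  · (try simp only [map_add, map_mul, map_pow, map_zero, map_one, hff, it39, it44, it51, it60, it63, it69, it71, iw]) <;> linear_combination (0 : K) * h2

theorem nE_LB_1_1_1_1_1_1_1_1_1_1_1_1_1 {l36 l45 l48 l49 l55 l66 t39 t44 t60 t71 : K} (hff : ∀ t, f (f t) = t) (it39 : f t39 = t39) (it44 : f t44 = t44) (it60 : f t60 = t60) (it71 : f t71 = t71) :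
    nR [0, 1, 2, 3, 1, 2, 0] * E f (l36) 0 0 (t39) 0 0 (t44) (l45) 0 0 (l48) (l49) 0 0 0 0 (l55) (t60) 0 0 (l66) 0 0 (t71) * (nR [0, 1, 2, 3, 1, 2, 0])⁻¹ = E f ((f l48)) ((f l36)) ((f l49) + (f l36)*(f l48)) (t44) ((f l45)) ((f l55) + t44*(f l49) + (f l45)*(f l48)) (t60) ((f l66) + l45*(f l49)) 0 0 0 0 0 0 0 0 0 (t71 + l45*l48*(f l49) + l49*t44*(f l49) + l49*(f l45)*(f l48)) 0 0 0 0 0 (t39) := by
  have h2 : (2 : K) = 0 := CharTwo.two_eq_zero
  have c36 := fun t : K => nR_at (l := [0, 1, 2, 3, 1, 2, 0]) (s := 36) (m := 42) (by decide +kernel) t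
  have c39 := fun t : K => nR_at (l := [0, 1, 2, 3, 1, 2, 0]) (s := 39) (m := 71) (by decide +kernel) t
  have c44 := fun t : K => nR_at (l := [0, 1, 2, 3, 1, 2, 0]) (s := 44) (m := 39) (by decide +kernel) t
  have c45 := fun t : K => nR_at (l := [0, 1, 2, 3, 1, 2, 0]) (s := 45) (m := 43) (by decide +kernel) t
  have c48 := fun t : K => nR_at (l := [0, 1, 2, 3, 1, 2, 0]) (s := 48) (m := 56) (by decide +kernel) t
  have c49 := fun t : K => nR_at (l := [0, 1, 2, 3, 1, 2, 0]) (s := 49) (m := 57) (by decide +kernel) t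
  have c50 := fun t : K => nR_at (l := [0, 1, 2, 3, 1, 2, 0]) (s := 50) (m := 36) (by decide +kernel) t
  have c55 := fun t : K => nR_at (l := [0, 1, 2, 3, 1, 2, 0]) (s := 55) (m := 58) (by decide +kernel) t
  have c56 := fun t : K => nR_at (l := [0, 1, 2, 3, 1, 2, 0]) (s := 56) (m := 37) (by decide +kernel) t
  have c59 := fun t : K => nR_at (l := [0, 1, 2, 3, 1, 2, 0]) (s := 59) (m := 40) (by decide +kernel) t
  have c60 := fun t : K => nR_at (l := [0, 1, 2, 3, 1, 2, 0]) (s := 60) (m := 44) (by decide +kernel) t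
  have c61 := fun t : K => nR_at (l := [0, 1, 2, 3, 1, 2, 0]) (s := 61) (m := 38) (by decide +kernel) t
  have c66 := fun t : K => nR_at (l := [0, 1, 2, 3, 1, 2, 0]) (s := 66) (m := 59) (by decide +kernel) t
  have c67 := fun t : K => nR_at (l := [0, 1, 2, 3, 1, 2, 0]) (s := 67) (m := 41) (by decide +kernel) t
  have c68 := fun t : K => nR_at (l := [0, 1, 2, 3, 1, 2, 0]) (s := 68) (m := 45) (by decide +kernel) t
  have c71 := fun t : K => nR_at (l := [0, 1, 2, 3, 1, 2, 0]) (s := 71) (m := 60) (by decide +kernel) t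
  unfold E
  rw [conj_W]
  simp only [map_zero, zero_mul, mul_zero, add_zero, zero_add, conj_x0, one_mul, c36, c39, c44, c45, c48, c49, c50, c55, c56, c59, c60, c61, c66, c67, c68, c71]
  rw [← W_zero (K := K)]
  simp only [xW_36, xW_37, xW_38, xW_39, xW_40, xW_41, xW_42, xW_43, xW_44, xW_45, xW_56, xW_57, xW_58, xW_59, xW_60, xW_71, zero_mul, mul_zero, add_zero, zero_add]
  first
    | done
    | apply W_congr
      · (try simp only [map_add, map_mul, map_pow, map_zero, map_one, hff, it39, it44, it60, it71]) <;> linear_combination (0 : K) * h2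
      · (try simp only [map_add, map_mul, map_pow, map_zero, map_one, hff, it39, it44, it60, it71]) <;> linear_combination (0 : K) * h2
      · (try simp only [map_add, map_mul, map_pow, map_zero, map_one, hff, it39, it44, it60, it71]) <;> linear_combination (0 : K) * h2
      · (try simp only [map_add, map_mul, map_pow, map_zero, map_one, hff, it39, it44, it60, it71]) <;> linear_combination (0 : K) * h2
      · (try simp only [map_add, map_mul, map_pow, map_zero, map_one, hff, it39, it44, it60, it71]) <;> linear_combination (t44*(f l36)) * h2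
      · (try simp only [map_add, map_mul, map_pow, map_zero, map_one, hff, it39, it44, it60, it71]) <;> linear_combination (t44*(f l36)*(f l48)) * h2
      · (try simp only [map_add, map_mul, map_pow, map_zero, map_one, hff, it39, it44, it60, it71]) <;> linear_combination (0 : K) * h2
      · (try simp only [map_add, map_mul, map_pow, map_zero, map_one, hff, it39, it44, it60, it71]) <;> linear_combination (0 : K) * h2
      · (try simp only [map_add, map_mul, map_pow, map_zero, map_one, hff, it39, it44, it60, it71]) <;> linear_combination (l45*(f l36) + l36*t44*(f l36)) * h2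
      · (try simp only [map_add, map_mul, map_pow, map_zero, map_one, hff, it39, it44, it60, it71]) <;> linear_combination (l45*(f l36)*(f l48) + l36*t44*(f l36)*(f l48)) * h2
      · (try simp only [map_add, map_mul, map_pow, map_zero, map_one, hff, it39, it44, it60, it71]) <;> linear_combination (0 : K) * h2
      · (try simp only [map_add, map_mul, map_pow, map_zero, map_one, hff, it39, it44, it60, it71]) <;> linear_combination (0 : K) * h2
      · (try simp only [map_add, map_mul, map_pow, map_zero, map_one, hff, it39, it44, it60, it71]) <;> linear_combination (0 : K) * h2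
      · (try simp only [map_add, map_mul, map_pow, map_zero, map_one, hff, it39, it44, it60, it71]) <;> linear_combination (0 : K) * h2
      · (try simp only [map_add, map_mul, map_pow, map_zero, map_one, hff, it39, it44, it60, it71]) <;> linear_combination (0 : K) * h2
      · (try simp only [map_add, map_mul, map_pow, map_zero, map_one, hff, it39, it44, it60, it71]) <;> linear_combination (0 : K) * h2
      · (try simp only [map_add, map_mul, map_pow, map_zero, map_one, hff, it39, it44, it60, it71]) <;> linear_combination (0 : K) * h2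
      · (try simp only [map_add, map_mul, map_pow, map_zero, map_one, hff, it39, it44, it60, it71]) <;> linear_combination (0 : K) * h2
      · (try simp only [map_add, map_mul, map_pow, map_zero, map_one, hff, it39, it44, it60, it71]) <;> linear_combination (0 : K) * h2
      · (try simp only [map_add, map_mul, map_pow, map_zero, map_one, hff, it39, it44, it60, it71]) <;> linear_combination (0 : K) * h2
      · (try simp only [map_add, map_mul, map_pow, map_zero, map_one, hff, it39, it44, it60, it71]) <;> linear_combination (0 : K) * h2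
      · (try simp only [map_add, map_mul, map_pow, map_zero, map_one, hff, it39, it44, it60, it71]) <;> linear_combination (-l36*l48) * h2
      · (try simp only [map_add, map_mul, map_pow, map_zero, map_one, hff, it39, it44, it60, it71]) <;> linear_combination (-l45*l48 - l49*t44 - l36*l48*t44) * h2
      · (try simp only [map_add, map_mul, map_pow, map_zero, map_one, hff, it39, it44, it60, it71]) <;> linear_combination (l55*(f l36) - l36*l48*(f l45) + l45*l48*(f l36) + l49*t44*(f l36)) * h2
      · (try simp only [map_add, map_mul, map_pow, map_zero, map_one, hff, it39, it44, it60, it71]) <;> linear_combination (l55*(f l49) - l36*l48*(f l55) - l45*l48*(f l49) - l49*t44*(f l49) + l55*(f l36)*(f l48) - l36*l48*t44*(f l49) - l36*l48*(f l45)*(f l48) + l45*l48*(f l36)*(f l48) + l49*t44*(f l36)*(f l48)) * h2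
      · (try simp only [map_add, map_mul, map_pow, map_zero, map_one, hff, it39, it44, it60, it71]) <;> linear_combination (0 : K) * h2
      · (try simp only [map_add, map_mul, map_pow, map_zero, map_one, hff, it39, it44, it60, it71]) <;> linear_combination (0 : K) * h2
      · (try simp only [map_add, map_mul, map_pow, map_zero, map_one, hff, it39, it44, it60, it71]) <;> linear_combination (0 : K) * h2
      · (try simp only [map_add, map_mul, map_pow, map_zero, map_one, hff, it39, it44, it60, it71]) <;> linear_combination (0 : K) * h2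
      · (try simp only [map_add, map_mul, map_pow, map_zero, map_one, hff, it39, it44, it60, it71]) <;> linear_combination (0 : K) * h2
      · (try simp only [map_add, map_mul, map_pow, map_zero, map_one, hff, it39, it44, it60, it71]) <;> linear_combination (0 : K) * h2
      · (try simp only [map_add, map_mul, map_pow, map_zero, map_one, hff, it39, it44, it60, it71]) <;> linear_combination (0 : K) * h2
      · (try simp only [map_add, map_mul, map_pow, map_zero, map_one, hff, it39, it44, it60, it71]) <;> linear_combination (0 : K) * h2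
      · (try simp only [map_add, map_mul, map_pow, map_zero, map_one, hff, it39, it44, it60, it71]) <;> linear_combination (0 : K) * h2
      · (try simp only [map_add, map_mul, map_pow, map_zero, map_one, hff, it39, it44, it60, it71]) <;> linear_combination (0 : K) * h2
      · (try simp only [map_add, map_mul, map_pow, map_zero, map_one, hff, it39, it44, it60, it71]) <;> linear_combination (0 : K) * h2

theorem LB_1_1_1_1_1_1_1_1_1_1_1_1_1_1 {l36 l37 l38 l40 l41 l45 t39 t44 t60 t71 : K} (d : Dt f) (hp71 : t71 ≠ 0) (hm : E f (l36) (l37) (l38) (t39) (l40) (l41) (t44) (l45) 0 0 0 0 0 0 0 0 0 (t60) 0 0 0 0 0 (t71) ∈ (sc f).G1) (hs : E f (l36) (l37) (l38) (t39) (l40) (l41) (t44) (l45) 0 0 0 0 0 0 0 0 0 (t60) 0 0 0 0 0 (t71) * E f (l36) (l37) (l38) (t39) (l40) (l41) (t44) (l45) 0 0 0 0 0 0 0 0 0 (t60) 0 0 0 0 0 (t71) = 1) : Res f (E f (l36) (l37) (l38) (t39) (l40) (l41) (t44) (l45) 0 0 0 0 0 0 0 0 0 (t60) 0 0 0 0 0 (t71)) := by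
  exact F1 d hp71 hm hs

theorem LB_1_1_1_1_1_1_1_1_1_1_1_1_1 {l36 l45 l48 l49 l55 l66 t39 t44 t60 t71 : K} (d : Dt f) (hp39 : t39 ≠ 0) (hm : E f (l36) 0 0 (t39) 0 0 (t44) (l45) 0 0 (l48) (l49) 0 0 0 0 (l55) (t60) 0 0 (l66) 0 0 (t71) ∈ (sc f).G1) (hs : E f (l36) 0 0 (t39) 0 0 (t44) (l45) 0 0 (l48) (l49) 0 0 0 0 (l55) (t60) 0 0 (l66) 0 0 (t71) * E f (l36) 0 0 (t39) 0 0 (t44) (l45) 0 0 (l48) (l49) 0 0 0 0 (l55) (t60) 0 0 (l66) 0 0 (t71) = 1) : Res f (E f (l36) 0 0 (t39) 0 0 (t44) (l45) 0 0 (l48) (l49) 0 0 0 0 (l55) (t60) 0 0 (l66) 0 0 (t71)) := by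
  obtain ⟨it39, it44, it46, it47, it51, it53, it60, it63, it65, it69, it70, it71⟩ := inv_of_mem d hm
  have c : Cj f (E f (l36) 0 0 (t39) 0 0 (t44) (l45) 0 0 (l48) (l49) 0 0 0 0 (l55) (t60) 0 0 (l66) 0 0 (t71)) (E f ((f l48)) ((f l36)) ((f l49) + (f l36)*(f l48)) (t44) ((f l45)) ((f l55) + t44*(f l49) + (f l45)*(f l48)) (t60) ((f l66) + l45*(f l49)) 0 0 0 0 0 0 0 0 0 (t71 + l45*l48*(f l49) + l49*t44*(f l49) + l49*(f l45)*(f l48)) 0 0 0 0 0 (t39)) := cjN f (nR_mem f [0, 1, 2, 3, 1, 2, 0]) (nE_LB_1_1_1_1_1_1_1_1_1_1_1_1_1 d.hff it39 it44 it60 it71)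
  exact Res.of_cj f c (LB_1_1_1_1_1_1_1_1_1_1_1_1_1_1 d hp39 (c.mem f hm) (c.sq f hs))

theorem LB_1_1_1_1_1_1_1_1_1_1_1_1 {l36 l45 l48 l49 l55 l66 t39 t44 t60 t69 t71 : K} (d : Dt f) (hp39 : t39 ≠ 0) (hm : E f (l36) 0 0 (t39) 0 0 (t44) (l45) 0 0 (l48) (l49) 0 0 0 0 (l55) (t60) 0 0 (l66) (t69) 0 (t71) ∈ (sc f).G1) (hs : E f (l36) 0 0 (t39) 0 0 (t44) (l45) 0 0 (l48) (l49) 0 0 0 0 (l55) (t60) 0 0 (l66) (t69) 0 (t71) * E f (l36) 0 0 (t39) 0 0 (t44) (l45) 0 0 (l48) (l49) 0 0 0 0 (l55) (t60) 0 0 (l66) (t69) 0 (t71) = 1) : Res f (E f (l36) 0 0 (t39) 0 0 (t44) (l45) 0 0 (l48) (l49) 0 0 0 0 (l55) (t60) 0 0 (l66) (t69) 0 (t71)) := by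
  have h2 : (2 : K) = 0 := CharTwo.two_eq_zero
  have hz : t69 = 0 := by
    have h := hs
    unfold E at h
    rw [W_mul, ← W_zero] at h
    obtain ⟨-, -, -, -, -, -, -, -, -, -, -, -, -, -, -, -, -, -, -, -, -, -, -, -, -, -, -, -, -, -, -, -, -, -, h70, -⟩ := W_inj h
    try simp only [map_zero] at h70
    have key : t39*t69 = 0 := by linear_combination h70
    simpa [mul_eq_zero, map_eq_zero, pow_eq_zero_iff, hp39] using key
  subst hz
  exact LB_1_1_1_1_1_1_1_1_1_1_1_1_1 d hp39 hm hs

theorem LB_1_1_1_1_1_1_1_1_1_1_1 {l36 l45 l48 l49 l55 l66 t39 t44 t60 t63 t69 t71 : K} (d : Dt f) (hp39 : t39 ≠ 0) (hm : E f (l36) 0 0 (t39) 0 0 (t44) (l45) 0 0 (l48) (l49) 0 0 0 0 (l55) (t60) (t63) 0 (l66) (t69) 0 (t71) ∈ (sc f).G1) (hs : E f (l36) 0 0 (t39) 0 0 (t44) (l45) 0 0 (l48) (l49) 0 0 0 0 (l55) (t60) (t63) 0 (l66) (t69) 0 (t71) * E f (l36) 0 0 (t39) 0 0 (t44) (l45) 0 0 (l48) (l49) 0 0 0 0 (l55) (t60) (t63) 0 (l66) (t69) 0 (t71) = 1) : Res f (E f (l36) 0 0 (t39) 0 0 (t44) (l45) 0 0 (l48) (l49) 0 0 0 0 (l55) (t60) (t63) 0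 (l66) (t69) 0 (t71)) := by
  have h2 : (2 : K) = 0 := CharTwo.two_eq_zero
  have hz : t63 = 0 := by
    have h := hs
    unfold E at h
    rw [W_mul, ← W_zero] at h
    obtain ⟨-, -, -, -, -, -, -, -, -, -, -, -, -, -, -, -, -, -, -, -, -, -, -, -, -, -, -, -, -, h65, -, -, -, -, -, -⟩ := W_inj h
    try simp only [map_zero] at h65
    have key : t39*t63 = 0 := by linear_combination h65
    simpa [mul_eq_zero, map_eq_zero, pow_eq_zero_iff, hp39] using key
  subst hz
  exact LB_1_1_1_1_1_1_1_1_1_1_1_1 d hp39 hm hs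

theorem LB_1_1_1_1_1_1_1_1_1_1 {l36 l45 l48 l49 l52 l55 l66 t39 t44 t60 t63 t69 t71 : K} (d : Dt f) (hp39 : t39 ≠ 0) (hm : E f (l36) 0 0 (t39) 0 0 (t44) (l45) 0 0 (l48) (l49) 0 (l52) 0 0 (l55) (t60) (t63) 0 (l66) (t69) 0 (t71) ∈ (sc f).G1) (hs : E f (l36) 0 0 (t39) 0 0 (t44) (l45) 0 0 (l48) (l49) 0 (l52) 0 0 (l55) (t60) (t63) 0 (l66) (t69) 0 (t71) * E f (l36) 0 0 (t39) 0 0 (t44) (l45) 0 0 (l48) (l49) 0 (l52) 0 0 (l55) (t60) (t63) 0 (l66) (t69) 0 (t71) = 1) : Res f (E f (l36) 0 0 (t39) 0 0 (t44) (l45) 0 0 (l48) (l49) 0 (l52) 0 0 (l55) (t60) (t63) 0 (l66) (t69) 0 (t71)) := by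
  have h2 : (2 : K) = 0 := CharTwo.two_eq_zero
  have hz : l52 = 0 := by
    have h := hs
    unfold E at h
    rw [W_mul, ← W_zero] at h
    obtain ⟨-, -, -, -, -, -, -, -, -, -, -, -, -, -, -, -, -, -, h54, -, -, -, -, -, -, -, -, -, -, -, -, -, -, -, -, -⟩ := W_inj h
    try simp only [map_zero] at h54
    have key : l52*t39 = 0 := by linear_combination h54
    simpa [mul_eq_zero, map_eq_zero, pow_eq_zero_iff, hp39] using key
  subst hz
  exact LB_1_1_1_1_1_1_1_1_1_1_1 d hp39 hm hs

theorem LB_1_1_1_1_1_1_1_1_1 {l36 l45 l48 l49 l52 l55 l66 t39 t44 t51 t60 t63 t69 t71 : K} (d : Dt f) (hp39 : t39 ≠ 0) (hm : E f (l36) 0 0 (t39) 0 0 (t44) (l45) 0 0 (l48) (l49) (t51) (l52) 0 0 (l55) (t60) (t63) 0 (l66) (t69) 0 (t71) ∈ (sc f).G1) (hs : E f (l36) 0 0 (t39) 0 0 (t44) (l45) 0 0 (l48) (l49) (t51) (l52) 0 0 (l55) (t60) (t63) 0 (l66) (t69) 0 (t71) * E f (l36) 0 0 (t39) 0 0 (t44) (l45) 0 0 (l48) (l49) (t51) (l52) 0 0 (l55) (t60) (t63) 0 (l66) (t69) 0 (t71) = 1) : Res f (E f (l36) 0 0 (t39) 0 0 (t44) (l45) 0 0 (l48) (l49) (t51)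 (l52) 0 0 (l55) (t60) (t63) 0 (l66) (t69) 0 (t71)) := by
  have h2 : (2 : K) = 0 := CharTwo.two_eq_zero
  have hz : t51 = 0 := by
    have h := hs
    unfold E at h
    rw [W_mul, ← W_zero] at h
    obtain ⟨-, -, -, -, -, -, -, -, -, -, -, -, -, -, -, -, -, h53, -, -, -, -, -, -, -, -, -, -, -, -, -, -, -, -, -, -⟩ := W_inj h
    try simp only [map_zero] at h53
    have key : t39*t51 = 0 := by linear_combination h53
    simpa [mul_eq_zero, map_eq_zero, pow_eq_zero_iff, hp39] using key
  subst hz
  exact LB_1_1_1_1_1_1_1_1_1_1 d hp39 hm hs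

theorem LB_1_1_1_1_1_1_1_1 {l36 l38 l45 l48 l49 l52 l55 l66 t39 t44 t51 t60 t63 t69 t71 : K} (d : Dt f) (hp39 : t39 ≠ 0) (hm : E f (l36) 0 (l38) (t39) 0 0 (t44) (l45) 0 0 (l48) (l49) (t51) (l52) 0 0 (l55) (t60) (t63) 0 (l66) (t69) 0 (t71) ∈ (sc f).G1) (hs : E f (l36) 0 (l38) (t39) 0 0 (t44) (l45) 0 0 (l48) (l49) (t51) (l52) 0 0 (l55) (t60) (t63) 0 (l66) (t69) 0 (t71) * E f (l36) 0 (l38) (t39) 0 0 (t44) (l45) 0 0 (l48) (l49) (t51) (l52) 0 0 (l55) (t60) (t63) 0 (l66) (t69) 0 (t71) = 1) : Res f (E f (l36) 0 (l38) (t39) 0 0 (t44) (l45) 0 0 (l48) (l49) (t51) (l52) 0 0 (l55) (t60) (t63) 0 (l66) (t69) 0 (t71)) := by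
  have h2 : (2 : K) = 0 := CharTwo.two_eq_zero
  have hz : l38 = 0 := by
    have h := hs
    unfold E at h
    rw [W_mul, ← W_zero] at h
    obtain ⟨-, -, -, -, -, h41, -, -, -, -, -, -, -, -, -, -, -, -, -, -, -, -, -, -, -, -, -, -, -, -, -, -, -, -, -, -⟩ := W_inj h
    try simp only [map_zero] at h41
    have key : l38*t39 = 0 := by linear_combination h41
    simpa [mul_eq_zero, map_eq_zero, pow_eq_zero_iff, hp39] using key
  subst hz
  exact LB_1_1_1_1_1_1_1_1_1 d hp39 hm hs

theorem LB_1_1_1_1_1_1_1 {l36 l37 l38 l45 l48 l49 l52 l55 l66 t39 t44 t51 t60 t63 t69 t71 : K} (d : Dt f) (hp39 : t39 ≠ 0) (hm : E f (l36) (l37) (l38) (t39) 0 0 (t44) (l45) 0 0 (l48) (l49) (t51) (l52) 0 0 (l55) (t60) (t63) 0 (l66) (t69) 0 (t71) ∈ (sc f).G1) (hs : E f (l36) (l37) (l38) (t39) 0 0 (t44) (l45) 0 0 (l48) (l49) (t51) (l52) 0 0 (l55) (t60) (t63) 0 (l66) (t69) 0 (t71) * E f (l36) (l37) (l38) (t39) 0 0 (t44) (l45) 0 0 (l48) (l49) (t51) (l52) 0 0 (l55) (t60) (t63) 0 (l66) (t69) 0 (t71) = 1) : Res f (E f (l36) (l37) (l38) (t39) 0 0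 (t44) (l45) 0 0 (l48) (l49) (t51) (l52) 0 0 (l55) (t60) (t63) 0 (l66) (t69) 0 (t71)) := by
  have h2 : (2 : K) = 0 := CharTwo.two_eq_zero
  have hz : l37 = 0 := by
    have h := hs
    unfold E at h
    rw [W_mul, ← W_zero] at h
    obtain ⟨-, -, -, -, h40, -, -, -, -, -, -, -, -, -, -, -, -, -, -, -, -, -, -, -, -, -, -, -, -, -, -, -, -, -, -, -⟩ := W_inj h
    try simp only [map_zero] at h40
    have key : l37*t39 = 0 := by linear_combination h40
    simpa [mul_eq_zero, map_eq_zero, pow_eq_zero_iff, hp39] using key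
  subst hz
  exact LB_1_1_1_1_1_1_1_1 d hp39 hm hs

theorem LB_1_1_1_1_1_1 {l36 l37 l38 l45 l48 l49 l52 l55 l66 t39 t44 t51 t60 t63 t69 t70 t71 : K} (d : Dt f) (hp39 : t39 ≠ 0) (hm : E f (l36) (l37) (l38) (t39) 0 0 (t44) (l45) 0 0 (l48) (l49) (t51) (l52) 0 0 (l55) (t60) (t63) 0 (l66) (t69) (t70) (t71) ∈ (sc f).G1) (hs : E f (l36) (l37) (l38) (t39) 0 0 (t44) (l45) 0 0 (l48) (l49) (t51) (l52) 0 0 (l55) (t60) (t63) 0 (l66) (t69) (t70) (t71) * E f (l36) (l37) (l38) (t39) 0 0 (t44) (l45) 0 0 (l48) (l49) (t51) (l52) 0 0 (l55) (t60) (t63) 0 (l66) (t69) (t70) (t71) = 1) : Res f (E f (l36) (l37) (l38) (t39) 0 0 (t44) (l45) 0 0 (l48) (l49) (t51) (l52) 0 0 (l55) (t60) (t63) 0 (l66) (t69) (t70) (t71)) := by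
  obtain ⟨it39, it44, it46, it47, it51, it53, it60, it63, it65, it69, it70, it71⟩ := inv_of_mem d hm
  obtain ⟨w, hw, rfl⟩ := solve_fix hp39 (by simp only [map_mul, map_pow, map_one, map_zero, map_add, it39]) it70
  have c : Cj f (E f (l36) (l37) (l38) (t39) 0 0 (t44) (l45) 0 0 (l48) (l49) (t51) (l52) 0 0 (l55) (t60) (t63) 0 (l66) (t69) ((t39) * w) (t71)) (E f (l36) (l37) (l38) (t39) 0 0 (t44) (l45) 0 0 (l48) (l49) (t51) (l52) 0 0 (l55) (t60) (t63) 0 (l66) (t69) 0 (t71)) := cjS f (E_mem_G1 d (map_zero f) (map_zero f) (map_zero f) (map_zero f) (map_zero f) (map_zero f) (map_zero f) (map_zero f) (map_zero f) hw (map_zero f) (map_zero f) 0 0 0 0 0 0 0 0 0 0 0 0) (st_LB_1_1_1_1_1_1 d.hff it39 it44 it51 it60 it63 it69 it71 hw)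
  exact Res.of_cj f c (LB_1_1_1_1_1_1_1 d hp39 (c.mem f hm) (c.sq f hs))

theorem LB_1_1_1_1_1 {l36 l37 l38 l45 l48 l49 l52 l55 l66 t39 t44 t51 t60 t63 t65 t69 t70 t71 : K} (d : Dt f) (hp39 : t39 ≠ 0) (hm : E f (l36) (l37) (l38) (t39) 0 0 (t44) (l45) 0 0 (l48) (l49) (t51) (l52) 0 0 (l55) (t60) (t63) (t65) (l66) (t69) (t70) (t71) ∈ (sc f).G1) (hs : E f (l36) (l37) (l38) (t39) 0 0 (t44) (l45) 0 0 (l48) (l49) (t51) (l52) 0 0 (l55) (t60) (t63) (t65) (l66) (t69) (t70) (t71) * E f (l36) (l37) (l38) (t39) 0 0 (t44) (l45) 0 0 (l48) (l49) (t51) (l52) 0 0 (l55) (t60) (t63) (t65) (l66) (t69) (t70) (t71) = 1) : Res f (E f (l36) (l37) (l38) (t39) 0 0 (t44) (l45) 0 0 (l48) (l49) (t51) (l52) 0 0 (l55) (t60) (t63) (t65) (l66) (t69) (t70) (t71)) := by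
  obtain ⟨it39, it44, it46, it47, it51, it53, it60, it63, it65, it69, it70, it71⟩ := inv_of_mem d hm
  obtain ⟨w, hw, rfl⟩ := solve_fix hp39 (by simp only [map_mul, map_pow, map_one, map_zero, map_add, it39]) it65
  have c : Cj f (E f (l36) (l37) (l38) (t39) 0 0 (t44) (l45) 0 0 (l48) (l49) (t51) (l52) 0 0 (l55) (t60) (t63) ((t39) * w) (l66) (t69) (t70) (t71)) (E f (l36) (l37) (l38) (t39) 0 0 (t44) (l45) 0 0 (l48) (l49) (t51) (l52) 0 0 (l55) (t60) (t63) 0 (l66) (t69 + t44*w) (t70 + t39*t44*w) (t71 + t39*t51*w)) := cjS f (E_mem_G1 d (map_zero f) (map_zero f) (map_zero f) (map_zero f) (map_zero f) (map_zero f) (map_zero f) hw (map_zero f) (map_zero f) (map_zero f) (map_zero f) 0 0 0 0 0 0 0 0 0 0 0 0) (st_LB_1_1_1_1_1 d.hff it39 it44 it51 it60 it63 it69 it70 it71 hw)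
  exact Res.of_cj f c (LB_1_1_1_1_1_1 d hp39 (c.mem f hm) (c.sq f hs))

theorem LB_1_1_1_1 {l36 l37 l38 l45 l48 l49 l52 l54 l55 l66 t39 t44 t51 t60 t63 t65 t69 t70 t71 : K} (d : Dt f) (hp39 : t39 ≠ 0) (hm : E f (l36) (l37) (l38) (t39) 0 0 (t44) (l45) 0 0 (l48) (l49) (t51) (l52) 0 (l54) (l55) (t60) (t63) (t65) (l66) (t69) (t70) (t71) ∈ (sc f).G1) (hs : E f (l36) (l37) (l38) (t39) 0 0 (t44) (l45) 0 0 (l48) (l49) (t51) (l52) 0 (l54) (l55) (t60) (t63) (t65) (l66) (t69) (t70) (t71) * E f (l36) (l37) (l38) (t39) 0 0 (t44) (l45) 0 0 (l48) (l49) (t51) (l52) 0 (l54) (l55) (t60) (t63) (t65) (l66) (t69) (t70) (t71) = 1) : Res f (E f (l36) (l37) (l38) (t39) 0 0 (t44) (l45) 0 0 (l48) (l49) (t51) (l52) 0 (l54) (l55) (t60) (t63) (t65) (l66) (t69) (t70) (t71)) := by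
  obtain ⟨it39, it44, it46, it47, it51, it53, it60, it63, it65, it69, it70, it71⟩ := inv_of_mem d hm
  obtain ⟨y, rfl⟩ := solve_mul hp39 l54
  have c : Cj f (E f (l36) (l37) (l38) (t39) 0 0 (t44) (l45) 0 0 (l48) (l49) (t51) (l52) 0 ((t39) * y) (l55) (t60) (t63) (t65) (l66) (t69) (t70) (t71)) (E f (l36) (l37) (l38) (t39) 0 0 (t44) (l45) 0 0 (l48) (l49) (t51) (l52) 0 0 (l55) (t60) (t63 + l36*(f y) + y*(f l36)) (t65 + l36*t39*(f y) + t39*y*(f l36)) (l66) (t69 + l45*(f y) + y*(f l45) + l36*t44*(f y) + t44*y*(f l36)) (t70 + l45*t39*(f y) + t39*y*(f l45) + l36*t39*t44*(f y) + t39*t44*y*(f l36)) (t71 + l52*t39*(f y) + t39*y*(f l52) + t39*y*(f y) + l36*t39*t51*(f y) + t39*t51*y*(f l36))) := cjS f (E_mem_G1 d (map_zero f) (map_zero f) (map_zero f) (map_zero f) (map_zero f) (map_zero f) (map_zero f) (map_zero f) (map_zero f) (map_zero f) (map_zero f) (map_zero f) 0 0 0 0 0 0 0 0 (y) 0 0 0) (st_LB_1_1_1_1 d.hff it39 it44 it51 it60 it63 it65 it69 it70 it71)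
  exact Res.of_cj f c (LB_1_1_1_1_1 d hp39 (c.mem f hm) (c.sq f hs))

theorem LB_1_1_1 {l36 l37 l38 l45 l48 l49 l52 l54 l55 l66 t39 t44 t51 t53 t60 t63 t65 t69 t70 t71 : K} (d : Dt f) (hp39 : t39 ≠ 0) (hm : E f (l36) (l37) (l38) (t39) 0 0 (t44) (l45) 0 0 (l48) (l49) (t51) (l52) (t53) (l54) (l55) (t60) (t63) (t65) (l66) (t69) (t70) (t71) ∈ (sc f).G1) (hs : E f (l36) (l37) (l38) (t39) 0 0 (t44) (l45) 0 0 (l48) (l49) (t51) (l52) (t53) (l54) (l55) (t60) (t63) (t65) (l66) (t69) (t70) (t71) * E f (l36) (l37) (l38) (t39) 0 0 (t44) (l45) 0 0 (l48) (l49) (t51) (l52) (t53) (l54) (l55) (t60) (t63) (t65) (l66) (t69) (t70) (t71) = 1) : Res f (E f (l36) (l37) (l38) (t39) 0 0 (t44) (l45) 0 0 (l48) (l49) (t51) (l52) (t53) (l54) (l55) (t60) (t63) (t65) (l66) (t69) (t70) (t71)) := by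
  obtain ⟨it39, it44, it46, it47, it51, it53, it60, it63, it65, it69, it70, it71⟩ := inv_of_mem d hm
  obtain ⟨w, hw, rfl⟩ := solve_fix hp39 (by simp only [map_mul, map_pow, map_one, map_zero, map_add, it39]) it53
  have c : Cj f (E f (l36) (l37) (l38) (t39) 0 0 (t44) (l45) 0 0 (l48) (l49) (t51) (l52) ((t39) * w) (l54) (l55) (t60) (t63) (t65) (l66) (t69) (t70) (t71)) (E f (l36) (l37) (l38) (t39) 0 0 (t44) (l45) 0 0 (l48) (l49) (t51) (l52 + l36*w) 0 (l54 + l36*t39*w) (l55) (t60) (t63 + l36*w*(f l36)) (t65 + l36*t39*w*(f l36)) (l66) (t69 + t60*w + l36*w*(f l45) + l45*w*(f l36) + l36*t44*w*(f l36)) (t70 + l36*t39*w*(f l45) + l45*t39*w*(f l36) + l36*t39*t44*w*(f l36)) (t71 + t65*w + l36*t39*w*(f l52) + l52*t39*w*(f l36) + l36*t39*t51*w*(f l36) + l36*t39*w^2*(f l36))) := cjS f (E_mem_G1 d (map_zero f) (map_zero f) (map_zero f) (map_zero f) hw (map_zero f) (map_zero f) (map_zero f) (map_zero f) (map_zero f) (map_zero f) (map_zero f) 0 0 0 0 0 0 0 0 0 0 0 0) (st_LB_1_1_1 d.hff it39 it44 it51 it60 it63 it65 it69 it70 it71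 hw)
  exact Res.of_cj f c (LB_1_1_1_1 d hp39 (c.mem f hm) (c.sq f hs))

theorem LB_1_1 {l36 l37 l38 l41 l45 l48 l49 l52 l54 l55 l66 t39 t44 t51 t53 t60 t63 t65 t69 t70 t71 : K} (d : Dt f) (hp39 : t39 ≠ 0) (hm : E f (l36) (l37) (l38) (t39) 0 (l41) (t44) (l45) 0 0 (l48) (l49) (t51) (l52) (t53) (l54) (l55) (t60) (t63) (t65) (l66) (t69) (t70) (t71) ∈ (sc f).G1) (hs : E f (l36) (l37) (l38) (t39) 0 (l41) (t44) (l45) 0 0 (l48) (l49) (t51) (l52) (t53) (l54) (l55) (t60) (t63) (t65) (l66) (t69) (t70) (t71) * E f (l36) (l37) (l38) (t39) 0 (l41) (t44) (l45) 0 0 (l48) (l49) (t51) (l52) (t53) (l54) (l55) (t60) (t63) (t65) (l66) (t69) (t70) (t71) = 1) : Res f (E f (l36) (l37) (l38) (t39) 0 (l41) (t44) (l45) 0 0 (l48) (l49) (t51) (l52) (t53) (l54) (l55) (t60) (t63) (t65) (l66) (t69) (t70) (t71)) := by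
  obtain ⟨it39, it44, it46, it47, it51, it53, it60, it63, it65, it69, it70, it71⟩ := inv_of_mem d hm
  obtain ⟨y, rfl⟩ := solve_mul hp39 l41
  have c : Cj f (E f (l36) (l37) (l38) (t39) 0 ((t39) * y) (t44) (l45) 0 0 (l48) (l49) (t51) (l52) (t53) (l54) (l55) (t60) (t63) (t65) (l66) (t69) (t70) (t71)) (E f (l36) (l37) (l38) (t39) 0 0 (t44) (l45) 0 0 (l48) (l49) (t51) (l52 + y*(f l48)) (t53) (l54) (l55 + t53*y) (t60 + t39*y*(f y)) (t63 + l49*(f y) + y*(f l49)) (t65) (l66 + y*(f l54) + l48*t39*y*(f y)) (t69 + l55*(f y) + y*(f l55) + t53*y*(f y) + t39*t51*y*(f y)) (t70 + t39*t53*y*(f y)) (t71 + l49*t53*(f y) + t53*y*(f l49) + l48*t39*y*(f l48)*(f y))) := cjS f (E_mem_G1 d (map_zero f) (map_zero f) (map_zero f) (map_zero f) (map_zero f) (map_zero f) (map_zero f) (map_zero f) (map_zero f) (map_zero f) (map_zero f) (map_zero f) 0 0 (y) 0 0 0 0 0 0 0 0 0) (st_LB_1_1 d.hff it39 it44 it51 it53 it60 it63 it65 it69 it70 it71)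
  exact Res.of_cj f c (LB_1_1_1 d hp39 (c.mem f hm) (c.sq f hs))

theorem LB_1 {l36 l37 l38 l41 l45 l48 l49 l52 l54 l55 l66 t39 t44 t47 t51 t53 t60 t63 t65 t69 t70 t71 : K} (d : Dt f) (hp39 : t39 ≠ 0) (hm : E f (l36) (l37) (l38) (t39) 0 (l41) (t44) (l45) 0 (t47) (l48) (l49) (t51) (l52) (t53) (l54) (l55) (t60) (t63) (t65) (l66) (t69) (t70) (t71) ∈ (sc f).G1) (hs : E f (l36) (l37) (l38) (t39) 0 (l41) (t44) (l45) 0 (t47) (l48) (l49) (t51) (l52) (t53) (l54) (l55) (t60) (t63) (t65) (l66) (t69) (t70) (t71) * E f (l36) (l37) (l38) (t39) 0 (l41) (t44) (l45) 0 (t47) (l48) (l49) (t51) (l52) (t53) (l54) (l55) (t60) (t63) (t65) (l66) (t69) (t70) (t71) = 1) : Res f (E f (l36) (l37) (l38) (t39) 0 (l41) (t44) (l45) 0 (t47) (l48) (l49) (t51) (l52) (t53) (l54) (l55) (t60) (t63) (t65) (l66) (t69) (t70) (t71)) := by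
  obtain ⟨it39, it44, it46, it47, it51, it53, it60, it63, it65, it69, it70, it71⟩ := inv_of_mem d hm
  obtain ⟨w, hw, rfl⟩ := solve_fix hp39 (by simp only [map_mul, map_pow, map_one, map_zero, map_add, it39]) it47
  have c : Cj f (E f (l36) (l37) (l38) (t39) 0 (l41) (t44) (l45) 0 ((t39) * w) (l48) (l49) (t51) (l52) (t53) (l54) (l55) (t60) (t63) (t65) (l66) (t69) (t70) (t71)) (E f (l36) (l37) (l38) (t39) 0 (l41) (t44) (l45) 0 0 (l48) (l49 + l41*w) (t51 + t44*w) (l52 + l45*w) (t53 + t39*t44*w) (l54 + l45*t39*w) (l55 + l41*t44*w) (t60) (t63 + t60*w) (t65 + l41*w*(f l41)) (l66 + l41*w*(f l45)) (t69 + l45*w*(f l45)) (t70 + l41*t44*w*(f l41) + l45*t39*w*(f l45)) (t71 + t70*w + l41*t44*w*(f l49) + l41*t51*w*(f l41) + l41*w*(f l45)*(f l48) + l45*l48*w*(f l41) + l45*t39*w*(f l52) + l49*t44*w*(f l41) + l52*t39*w*(f l45) + l45*t39*w^2*(f l45))) := cjS f (E_mem_G1 d (map_zero f) (map_zero f) hw (map_zero f) (map_zero f) (map_zero f) (map_zero f) (map_zero f) (map_zero f) (map_zero f) (map_zero f) (map_zero f) 0 0 0 0 0 0 0 0 0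 0 0 0) (st_LB_1 d.hff it39 it44 it51 it53 it60 it63 it65 it69 it70 it71 hw)
  exact Res.of_cj f c (LB_1_1 d hp39 (c.mem f hm) (c.sq f hs))

theorem LB {l36 l37 l38 l40 l41 l45 l48 l49 l52 l54 l55 l66 t39 t44 t47 t51 t53 t60 t63 t65 t69 t70 t71 : K} (d : Dt f) (hp39 : t39 ≠ 0) (hm : E f (l36) (l37) (l38) (t39) (l40) (l41) (t44) (l45) 0 (t47) (l48) (l49) (t51) (l52) (t53) (l54) (l55) (t60) (t63) (t65) (l66) (t69) (t70) (t71) ∈ (sc f).G1) (hs : E f (l36) (l37) (l38) (t39) (l40) (l41) (t44) (l45) 0 (t47) (l48) (l49) (t51) (l52) (t53) (l54) (l55) (t60) (t63) (t65) (l66) (t69) (t70) (t71) * E f (l36) (l37) (l38) (t39) (l40) (l41) (t44) (l45) 0 (t47) (l48) (l49) (t51) (l52) (t53) (l54) (l55) (t60) (t63) (t65) (l66) (t69) (t70) (t71) = 1) : Res f (E f (l36) (l37) (l38) (t39) (l40) (l41) (t44) (l45) 0 (t47) (l48) (l49) (t51) (l52) (t53) (l54) (l55) (t60) (t63) (t65) (l66) (t69) (t70) (t71)) := by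
  obtain ⟨it39, it44, it46, it47, it51, it53, it60, it63, it65, it69, it70, it71⟩ := inv_of_mem d hm
  obtain ⟨y, rfl⟩ := solve_mul hp39 l40
  have c : Cj f (E f (l36) (l37) (l38) (t39) ((t39) * y) (l41) (t44) (l45) 0 (t47) (l48) (l49) (t51) (l52) (t53) (l54) (l55) (t60) (t63) (t65) (l66) (t69) (t70) (t71)) (E f (l36) (l37) (l38 + l36*y) (t39) 0 (l41) (t44 + t39*y*(f y)) (l45 + l41*(f y)) 0 (t47) (l48 + t47*y) (l49) (t51 + l48*(f y) + y*(f l48) + t47*y*(f y)) (l52 + l49*(f y)) (t53) (l54) (l55 + l54*y) (t60) (t63) (t65) (l66 + t65*y) (t69 + l66*(f y) + y*(f l66) + t65*y*(f y)) (t70) (t71)) := cjS f (E_mem_G1 d (map_zero f) (map_zero f) (map_zero f) (map_zero f) (map_zero f) (map_zero f) (map_zero f) (map_zero f) (map_zero f) (map_zero f) (map_zero f) (map_zero f) 0 (y) 0 0 0 0 0 0 0 0 0 0) (st_LB d.hff it39 it44 it47 it51 it53 it60 it63 it65 it69 it70 it71)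
  exact Res.of_cj f c (LB_1 d hp39 (c.mem f hm) (c.sq f hs))

end Cfsg.Agent.Lib.E6Inv50
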