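import Cfsg.Agent.Lib.E6Inv50I

/-!
# The involutions of `²E₆(q)`, `q` even: reduction chains
-/

set_option autoImplicit false
set_option linter.unusedSectionVars false
set_option linter.unusedVariables false
set_option linter.unusedSimpArgs false
set_option maxRecDepth 100000
set_option maxHeartbeats 4000000
set_option linter.unusedTactic false
set_option linter.unreachableTactic false

namespace Cfsg.Agent.Lib.E6Inv50

open Cfsg Cfsg.Lie Cfsg.Agent.Lib.Chev Cfsg.Agent.Lib.Chev.TwE6

variable {K : Type*} [Field K] [CharP K 2] [Fintype K] {f : K ≃+* K}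

theorem st_LC_1_1 {l37 l40 l41 l45 l48 l49 l52 l54 l55 l66 t44 t51 t53 t60 t63 t65 t69 t70 t71 y : K} (hff : ∀ t, f (f t) = t) (it44 : f t44 = t44) (it51 : f t51 = t51) (it53 : f t53 = t53) (it60 : f t60 = t60) (it63 : f t63 = t63) (it65 : f t65 = t65) (it69 : f t69 = t69) (it70 : f t70 = t70) (it71 : f t71 = t71) :
    E f (y) 0 0 0 0 0 0 0 0 0 0 0 0 0 0 0 0 0 0 0 0 0 0 0 * E f 0 (l37) ((l37) * y) 0 (l40) (l41) (t44) (l45) 0 0 (l48) (l49) (t51) (l52) (t53) (l54) (l55) (t60) (t63) (t65) (l66) (t69) (t70) (t71) = E f 0 (l37) 0 0 (l40) (l41 + l40*y) (t44) (l45 + t44*y) 0 0 (l48) (l49 + l48*y) (t51) (l52 + t51*y) (t53) (l54 + t53*y) (l55) (t60 + l45*(f y) + y*(f l45) + t44*y*(f y)) (t63 + l52*(f y) + y*(f l52) + t51*y*(f y)) (t65 + l54*(f y) + y*(f l54) + t53*y*(f y)) (l66 + l55*(f y) + l45*l48*(f y) + l48*y*(f l45) + l48*t44*y*(f y)) (t69 + l45*t51*(f y) + t51*y*(f l45) + t44*t51*y*(f y)) (t70 + l45*t53*(f y) + t53*y*(f l45) + t44*t53*y*(f y)) (t71 + l52*t53*(f y) + t53*y*(f l52) + l45*l48*(f l48)*(f y) + l48*y*(f l45)*(f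 l48) + t51*t53*y*(f y) + l48*t44*y*(f l48)*(f y)) * E f (y) 0 0 0 0 0 0 0 0 0 0 0 0 0 0 0 0 0 0 0 0 0 0 0 := by
  have h2 : (2 : K) = 0 := CharTwo.two_eq_zero
  unfold E
  rw [W_mul, W_mul]
  apply W_congr
  · (try simp only [map_add, map_mul, map_pow, map_zero, map_one, hff, it44, it51, it53, it60, it63, it65, it69, it70, it71]) <;> linear_combination (0 : K) * h2
  · (try simp only [map_add, map_mul, map_pow, map_zero, map_one, hff, it44, it51, it53, it60, it63, it65, it69, it70, it71]) <;> linear_combination (0 : K) * h2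
  · (try simp only [map_add, map_mul, map_pow, map_zero, map_one, hff, it44, it51, it53, it60, it63, it65, it69, it70, it71]) <;> linear_combination (0 : K) * h2
  · (try simp only [map_add, map_mul, map_pow, map_zero, map_one, hff, it44, it51, it53, it60, it63, it65, it69, it70, it71]) <;> linear_combination (0 : K) * h2
  · (try simp only [map_add, map_mul, map_pow, map_zero, map_one, hff, it44, it51, it53, it60, it63, it65, it69, it70, it71]) <;> linear_combination (0 : K) * h2
  · (try simp only [map_add, map_mul, map_pow, map_zero, map_one, hff, it44, it51, it53, it60, it63, it65, it69, it70, it71]) <;> linear_combination (-l40*y) * h2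
  · (try simp only [map_add, map_mul, map_pow, map_zero, map_one, hff, it44, it51, it53, it60, it63, it65, it69, it70, it71]) <;> linear_combination (0 : K) * h2
  · (try simp only [map_add, map_mul, map_pow, map_zero, map_one, hff, it44, it51, it53, it60, it63, it65, it69, it70, it71]) <;> linear_combination (0 : K) * h2
  · (try simp only [map_add, map_mul, map_pow, map_zero, map_one, hff, it44, it51, it53, it60, it63, it65, it69, it70, it71]) <;> linear_combination (0 : K) * h2
  · (try simp only [map_add, map_mul, map_pow, map_zero, map_one, hff, it44, it51, it53, it60, it63, it65, it69, it70, it71]) <;> linear_combination (-t44*y - l40*y*(f l37)) * h2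
  · (try simp only [map_add, map_mul, map_pow, map_zero, map_one, hff, it44, it51, it53, it60, it63, it65, it69, it70, it71]) <;> linear_combination (0 : K) * h2
  · (try simp only [map_add, map_mul, map_pow, map_zero, map_one, hff, it44, it51, it53, it60, it63, it65, it69, it70, it71]) <;> linear_combination (0 : K) * h2
  · (try simp only [map_add, map_mul, map_pow, map_zero, map_one, hff, it44, it51, it53, it60, it63, it65, it69, it70, it71]) <;> linear_combination (0 : K) * h2
  · (try simp only [map_add, map_mul, map_pow, map_zero, map_one, hff, it44, it51, it53, it60, it63, it65, it69, it70, it71]) <;> linear_combination (-l48*y) * h2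
  · (try simp only [map_add, map_mul, map_pow, map_zero, map_one, hff, it44, it51, it53, it60, it63, it65, it69, it70, it71]) <;> linear_combination (0 : K) * h2
  · (try simp only [map_add, map_mul, map_pow, map_zero, map_one, hff, it44, it51, it53, it60, it63, it65, it69, it70, it71]) <;> linear_combination (0 : K) * h2
  · (try simp only [map_add, map_mul, map_pow, map_zero, map_one, hff, it44, it51, it53, it60, it63, it65, it69, it70, it71]) <;> linear_combination (-t51*y) * h2
  · (try simp only [map_add, map_mul, map_pow, map_zero, map_one, hff, it44, it51, it53, it60, it63, it65, it69, it70, it71]) <;> linear_combination (0 : K) * h2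
  · (try simp only [map_add, map_mul, map_pow, map_zero, map_one, hff, it44, it51, it53, it60, it63, it65, it69, it70, it71]) <;> linear_combination (-t53*y) * h2
  · (try simp only [map_add, map_mul, map_pow, map_zero, map_one, hff, it44, it51, it53, it60, it63, it65, it69, it70, it71]) <;> linear_combination (0 : K) * h2
  · (try simp only [map_add, map_mul, map_pow, map_zero, map_one, hff, it44, it51, it53, it60, it63, it65, it69, it70, it71]) <;> linear_combination (0 : K) * h2
  · (try simp only [map_add, map_mul, map_pow, map_zero, map_one, hff, it44, it51, it53, it60, it63, it65, it69, it70, it71]) <;> linear_combination ((f l37)*(f y)) * h2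
  · (try simp only [map_add, map_mul, map_pow, map_zero, map_one, hff, it44, it51, it53, it60, it63, it65, it69, it70, it71]) <;> linear_combination (0 : K) * h2
  · (try simp only [map_add, map_mul, map_pow, map_zero, map_one, hff, it44, it51, it53, it60, it63, it65, it69, it70, it71]) <;> linear_combination (l40*(f l37)*(f y)) * h2
  · (try simp only [map_add, map_mul, map_pow, map_zero, map_one, hff, it44, it51, it53, it60, it63, it65, it69, it70, it71]) <;> linear_combination (-y*(f l45) + l41*(f l37)*(f y) - t44*y*(f y)) * h2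
  · (try simp only [map_add, map_mul, map_pow, map_zero, map_one, hff, it44, it51, it53, it60, it63, it65, it69, it70, it71]) <;> linear_combination (0 : K) * h2
  · (try simp only [map_add, map_mul, map_pow, map_zero, map_one, hff, it44, it51, it53, it60, it63, it65, it69, it70, it71]) <;> linear_combination (l48*(f l37)*(f y)) * h2
  · (try simp only [map_add, map_mul, map_pow, map_zero, map_one, hff, it44, it51, it53, it60, it63, it65, it69, it70, it71]) <;> linear_combination (-y*(f l52) + l49*(f l37)*(f y) - t51*y*(f y)) * h2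
  · (try simp only [map_add, map_mul, map_pow, map_zero, map_one, hff, it44, it51, it53, it60, it63, it65, it69, it70, it71]) <;> linear_combination (0 : K) * h2
  · (try simp only [map_add, map_mul, map_pow, map_zero, map_one, hff, it44, it51, it53, it60, it63, it65, it69, it70, it71]) <;> linear_combination (-y*(f l54) - l48*y*(f l41) - t53*y*(f y) - l48*y*(f l40)*(f y)) * h2
  · (try simp only [map_add, map_mul, map_pow, map_zero, map_one, hff, it44, it51, it53, it60, it63, it65, it69, it70, it71]) <;> linear_combination (-l48*y*(f l45) + l40*l49*(f l37)*(f y) + l41*l48*(f l37)*(f y) - l48*t44*y*(f y)) * h2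
  · (try simp only [map_add, map_mul, map_pow, map_zero, map_one, hff, it44, it51, it53, it60, it63, it65, it69, it70, it71]) <;> linear_combination (t53*(f l37)*(f y) + l40*(f l37)*(f l48)*(f y)) * h2
  · (try simp only [map_add, map_mul, map_pow, map_zero, map_one, hff, it44, it51, it53, it60, it63, it65, it69, it70, it71]) <;> linear_combination (-y*(f l55) + l54*(f l37)*(f y) - t51*y*(f l41) - y*(f l45)*(f l48) + l41*(f l37)*(f l48)*(f y) - t44*y*(f l48)*(f y) - t51*y*(f l40)*(f y)) * h2
  · (try simp only [map_add, map_mul, map_pow, map_zero, map_one, hff, it44, it51, it53, it60, it63, it65, it69, it70, it71]) <;> linear_combination (l55*(f l37)*(f y) - t51*y*(f l45) + l40*l52*(f l37)*(f y) + l41*t51*(f l37)*(f y) - t44*t51*y*(f y)) * h2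
  · (try simp only [map_add, map_mul, map_pow, map_zero, map_one, hff, it44, it51, it53, it60, it63, it65, it69, it70, it71]) <;> linear_combination (-t53*y*(f l45) + l40*l54*(f l37)*(f y) + l41*t53*(f l37)*(f y) - t44*t53*y*(f y)) * h2
  · (try simp only [map_add, map_mul, map_pow, map_zero, map_one, hff, it44, it51, it53, it60, it63, it65, it69, it70, it71]) <;> linear_combination (-t53*y*(f l52) + l48*l54*(f l37)*(f y) - l48*t51*y*(f l41) - l48*y*(f l45)*(f l48) + l49*t53*(f l37)*(f y) - t51*t53*y*(f y) + l40*l49*(f l37)*(f l48)*(f y) + l41*l48*(f l37)*(f l48)*(f y) - l48*t44*y*(f l48)*(f y) - l48*t51*y*(f l40)*(f y)) * h2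

theorem st_LC_1_1_1 {l37 l41 l45 l48 l49 l52 l54 l55 l66 t44 t51 t53 t60 t63 t65 t69 t70 t71 w : K} (hff : ∀ t, f (f t) = t) (it44 : f t44 = t44) (it51 : f t51 = t51) (it53 : f t53 = t53) (it60 : f t60 = t60) (it63 : f t63 = t63) (it65 : f t65 = t65) (it69 : f t69 = t69) (it70 : f t70 = t70) (it71 : f t71 = t71) (iw : f w = w) :
    E f 0 0 0 (w) 0 0 0 0 0 0 0 0 0 0 0 0 0 0 0 0 0 0 0 0 * E f 0 (l37) 0 0 ((l37) * w) (l41) (t44) (l45) 0 0 (l48) (l49) (t51) (l52) (t53) (l54) (l55) (t60) (t63) (t65) (l66) (t69) (t70) (t71) = E f 0 (l37) 0 0 0 (l41) (t44 + l37*w*(f l37)) (l45) 0 0 (l48) (l49) (t51) (l52) (t53 + t51*w) (l54 + l52*w) (l55) (t60) (t63) (t65 + t63*w) (l66) (t69) (t70 + t69*w) (t71 + l52*w*(f l52)) * E f 0 0 0 (w) 0 0 0 0 0 0 0 0 0 0 0 0 0 0 0 0 0 0 0 0 := by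
  have h2 : (2 : K) = 0 := CharTwo.two_eq_zero
  unfold E
  rw [W_mul, W_mul]
  apply W_congr
  · (try simp only [map_add, map_mul, map_pow, map_zero, map_one, hff, it44, it51, it53, it60, it63, it65, it69, it70, it71, iw]) <;> linear_combination (0 : K) * h2
  · (try simp only [map_add, map_mul, map_pow, map_zero, map_one, hff, it44, it51, it53, it60, it63, it65, it69, it70, it71, iw]) <;> linear_combination (0 : K) * h2
  · (try simp only [map_add, map_mul, map_pow, map_zero, map_one, hff, it44, it51, it53, it60, it63, it65, it69, it70, it71, iw]) <;> linear_combination (0 : K) * h2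
  · (try simp only [map_add, map_mul, map_pow, map_zero, map_one, hff, it44, it51, it53, it60, it63, it65, it69, it70, it71, iw]) <;> linear_combination (0 : K) * h2
  · (try simp only [map_add, map_mul, map_pow, map_zero, map_one, hff, it44, it51, it53, it60, it63, it65, it69, it70, it71, iw]) <;> linear_combination (l37*w) * h2
  · (try simp only [map_add, map_mul, map_pow, map_zero, map_one, hff, it44, it51, it53, it60, it63, it65, it69, it70, it71, iw]) <;> linear_combination (0 : K) * h2
  · (try simp only [map_add, map_mul, map_pow, map_zero, map_one, hff, it44, it51, it53, it60, it63, it65, it69, it70, it71, iw]) <;> linear_combination (0 : K) * h2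
  · (try simp only [map_add, map_mul, map_pow, map_zero, map_one, hff, it44, it51, it53, it60, it63, it65, it69, it70, it71, iw]) <;> linear_combination (0 : K) * h2
  · (try simp only [map_add, map_mul, map_pow, map_zero, map_one, hff, it44, it51, it53, it60, it63, it65, it69, it70, it71, iw]) <;> linear_combination (0 : K) * h2
  · (try simp only [map_add, map_mul, map_pow, map_zero, map_one, hff, it44, it51, it53, it60, it63, it65, it69, it70, it71, iw]) <;> linear_combination (0 : K) * h2
  · (try simp only [map_add, map_mul, map_pow, map_zero, map_one, hff, it44, it51, it53, it60, it63, it65, it69, it70, it71, iw]) <;> linear_combination (0 : K) * h2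
  · (try simp only [map_add, map_mul, map_pow, map_zero, map_one, hff, it44, it51, it53, it60, it63, it65, it69, it70, it71, iw]) <;> linear_combination (0 : K) * h2
  · (try simp only [map_add, map_mul, map_pow, map_zero, map_one, hff, it44, it51, it53, it60, it63, it65, it69, it70, it71, iw]) <;> linear_combination (0 : K) * h2
  · (try simp only [map_add, map_mul, map_pow, map_zero, map_one, hff, it44, it51, it53, it60, it63, it65, it69, it70, it71, iw]) <;> linear_combination (0 : K) * h2
  · (try simp only [map_add, map_mul, map_pow, map_zero, map_one, hff, it44, it51, it53, it60, it63, it65, it69, it70, it71, iw]) <;> linear_combination (0 : K) * h2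
  · (try simp only [map_add, map_mul, map_pow, map_zero, map_one, hff, it44, it51, it53, it60, it63, it65, it69, it70, it71, iw]) <;> linear_combination (0 : K) * h2
  · (try simp only [map_add, map_mul, map_pow, map_zero, map_one, hff, it44, it51, it53, it60, it63, it65, it69, it70, it71, iw]) <;> linear_combination (0 : K) * h2
  · (try simp only [map_add, map_mul, map_pow, map_zero, map_one, hff, it44, it51, it53, it60, it63, it65, it69, it70, it71, iw]) <;> linear_combination (-t51*w) * h2
  · (try simp only [map_add, map_mul, map_pow, map_zero, map_one, hff, it44, it51, it53, it60, it63, it65, it69, it70, it71, iw]) <;> linear_combination (-l52*w) * h2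
  · (try simp only [map_add, map_mul, map_pow, map_zero, map_one, hff, it44, it51, it53, it60, it63, it65, it69, it70, it71, iw]) <;> linear_combination (0 : K) * h2
  · (try simp only [map_add, map_mul, map_pow, map_zero, map_one, hff, it44, it51, it53, it60, it63, it65, it69, it70, it71, iw]) <;> linear_combination (0 : K) * h2
  · (try simp only [map_add, map_mul, map_pow, map_zero, map_one, hff, it44, it51, it53, it60, it63, it65, it69, it70, it71, iw]) <;> linear_combination (0 : K) * h2
  · (try simp only [map_add, map_mul, map_pow, map_zero, map_one, hff, it44, it51, it53, it60, it63, it65, it69, it70, it71, iw]) <;> linear_combination (0 : K) * h2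
  · (try simp only [map_add, map_mul, map_pow, map_zero, map_one, hff, it44, it51, it53, it60, it63, it65, it69, it70, it71, iw]) <;> linear_combination (0 : K) * h2
  · (try simp only [map_add, map_mul, map_pow, map_zero, map_one, hff, it44, it51, it53, it60, it63, it65, it69, it70, it71, iw]) <;> linear_combination (0 : K) * h2
  · (try simp only [map_add, map_mul, map_pow, map_zero, map_one, hff, it44, it51, it53, it60, it63, it65, it69, it70, it71, iw]) <;> linear_combination (0 : K) * h2
  · (try simp only [map_add, map_mul, map_pow, map_zero, map_one, hff, it44, it51, it53, it60, it63, it65, it69, it70, it71, iw]) <;> linear_combination (0 : K) * h2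
  · (try simp only [map_add, map_mul, map_pow, map_zero, map_one, hff, it44, it51, it53, it60, it63, it65, it69, it70, it71, iw]) <;> linear_combination (0 : K) * h2
  · (try simp only [map_add, map_mul, map_pow, map_zero, map_one, hff, it44, it51, it53, it60, it63, it65, it69, it70, it71, iw]) <;> linear_combination (-w*(f l52)) * h2
  · (try simp only [map_add, map_mul, map_pow, map_zero, map_one, hff, it44, it51, it53, it60, it63, it65, it69, it70, it71, iw]) <;> linear_combination (-t63*w) * h2
  · (try simp only [map_add, map_mul, map_pow, map_zero, map_one, hff, it44, it51, it53, it60, it63, it65, it69, it70, it71, iw]) <;> linear_combination (0 : K) * h2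
  · (try simp only [map_add, map_mul, map_pow, map_zero, map_one, hff, it44, it51, it53, it60, it63, it65, it69, it70, it71, iw]) <;> linear_combination (0 : K) * h2
  · (try simp only [map_add, map_mul, map_pow, map_zero, map_one, hff, it44, it51, it53, it60, it63, it65, it69, it70, it71, iw]) <;> linear_combination (0 : K) * h2
  · (try simp only [map_add, map_mul, map_pow, map_zero, map_one, hff, it44, it51, it53, it60, it63, it65, it69, it70, it71, iw]) <;> linear_combination (0 : K) * h2
  · (try simp only [map_add, map_mul, map_pow, map_zero, map_one, hff, it44, it51, it53, it60, it63, it65, it69, it70, it71, iw]) <;> linear_combination (-t69*w - l52*w*(f l45)) * h2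
  · (try simp only [map_add, map_mul, map_pow, map_zero, map_one, hff, it44, it51, it53, it60, it63, it65, it69, it70, it71, iw]) <;> linear_combination (-l52*w*(f l52)) * h2

theorem st_LC_1_1_1_1 {l37 l41 l45 l48 l49 l52 l54 l55 l66 t51 t53 t60 t63 t65 t69 t70 t71 y : K} (hff : ∀ t, f (f t) = t) (it51 : f t51 = t51) (it53 : f t53 = t53) (it60 : f t60 = t60) (it63 : f t63 = t63) (it65 : f t65 = t65) (it69 : f t69 = t69) (it70 : f t70 = t70) (it71 : f t71 = t71) :
    E f 0 0 0 0 (y) 0 0 0 0 0 0 0 0 0 0 0 0 0 0 0 0 0 0 0 * E f 0 (l37) 0 0 0 (l41) ((l37) * f y + f (l37) * y) (l45) 0 0 (l48) (l49) (t51) (l52) (t53) (l54) (l55) (t60) (t63) (t65) (l66) (t69) (t70) (t71) = E f 0 (l37) 0 0 0 (l41) 0 (l45) 0 0 (l48) (l49) (t51) (l52) (t53 + l48*(f y) + y*(f l48)) (l54 + l49*(f y)) (l55 + l52*y) (t60) (t63) (t65) (l66 + t63*y) (t69) (t70 + l66*(f y) + y*(f l66) + t63*y*(f y)) (t71 + l49*(f l52)*(f y) + l52*y*(f l49)) * E f 0 0 0 0 (y) 0 0 0 0 0 0 0 0 0 0 0 0 0 0 0 0 0 0 0 := by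
  have h2 : (2 : K) = 0 := CharTwo.two_eq_zero
  unfold E
  rw [W_mul, W_mul]
  apply W_congr
  · (try simp only [map_add, map_mul, map_pow, map_zero, map_one, hff, it51, it53, it60, it63, it65, it69, it70, it71]) <;> linear_combination (0 : K) * h2
  · (try simp only [map_add, map_mul, map_pow, map_zero, map_one, hff, it51, it53, it60, it63, it65, it69, it70, it71]) <;> linear_combination (0 : K) * h2
  · (try simp only [map_add, map_mul, map_pow, map_zero, map_one, hff, it51, it53, it60, it63, it65, it69, it70, it71]) <;> linear_combination (0 : K) * h2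
  · (try simp only [map_add, map_mul, map_pow, map_zero, map_one, hff, it51, it53, it60, it63, it65, it69, it70, it71]) <;> linear_combination (0 : K) * h2
  · (try simp only [map_add, map_mul, map_pow, map_zero, map_one, hff, it51, it53, it60, it63, it65, it69, it70, it71]) <;> linear_combination (0 : K) * h2
  · (try simp only [map_add, map_mul, map_pow, map_zero, map_one, hff, it51, it53, it60, it63, it65, it69, it70, it71]) <;> linear_combination (0 : K) * h2
  · (try simp only [map_add, map_mul, map_pow, map_zero, map_one, hff, it51, it53, it60, it63, it65, it69, it70, it71]) <;> linear_combination (0 : K) * h2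
  · (try simp only [map_add, map_mul, map_pow, map_zero, map_one, hff, it51, it53, it60, it63, it65, it69, it70, it71]) <;> linear_combination (0 : K) * h2
  · (try simp only [map_add, map_mul, map_pow, map_zero, map_one, hff, it51, it53, it60, it63, it65, it69, it70, it71]) <;> linear_combination (l37*(f y)) * h2
  · (try simp only [map_add, map_mul, map_pow, map_zero, map_one, hff, it51, it53, it60, it63, it65, it69, it70, it71]) <;> linear_combination (0 : K) * h2
  · (try simp only [map_add, map_mul, map_pow, map_zero, map_one, hff, it51, it53, it60, it63, it65, it69, it70, it71]) <;> linear_combination (0 : K) * h2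
  · (try simp only [map_add, map_mul, map_pow, map_zero, map_one, hff, it51, it53, it60, it63, it65, it69, it70, it71]) <;> linear_combination (0 : K) * h2
  · (try simp only [map_add, map_mul, map_pow, map_zero, map_one, hff, it51, it53, it60, it63, it65, it69, it70, it71]) <;> linear_combination (0 : K) * h2
  · (try simp only [map_add, map_mul, map_pow, map_zero, map_one, hff, it51, it53, it60, it63, it65, it69, it70, it71]) <;> linear_combination (0 : K) * h2
  · (try simp only [map_add, map_mul, map_pow, map_zero, map_one, hff, it51, it53, it60, it63, it65, it69, it70, it71]) <;> linear_combination (0 : K) * h2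
  · (try simp only [map_add, map_mul, map_pow, map_zero, map_one, hff, it51, it53, it60, it63, it65, it69, it70, it71]) <;> linear_combination (0 : K) * h2
  · (try simp only [map_add, map_mul, map_pow, map_zero, map_one, hff, it51, it53, it60, it63, it65, it69, it70, it71]) <;> linear_combination (0 : K) * h2
  · (try simp only [map_add, map_mul, map_pow, map_zero, map_one, hff, it51, it53, it60, it63, it65, it69, it70, it71]) <;> linear_combination (-l48*(f y) - y*(f l48)) * h2
  · (try simp only [map_add, map_mul, map_pow, map_zero, map_one, hff, it51, it53, it60, it63, it65, it69, it70, it71]) <;> linear_combination (-l49*(f y)) * h2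
  · (try simp only [map_add, map_mul, map_pow, map_zero, map_one, hff, it51, it53, it60, it63, it65, it69, it70, it71]) <;> linear_combination (-l52*y) * h2
  · (try simp only [map_add, map_mul, map_pow, map_zero, map_one, hff, it51, it53, it60, it63, it65, it69, it70, it71]) <;> linear_combination (0 : K) * h2
  · (try simp only [map_add, map_mul, map_pow, map_zero, map_one, hff, it51, it53, it60, it63, it65, it69, it70, it71]) <;> linear_combination (0 : K) * h2
  · (try simp only [map_add, map_mul, map_pow, map_zero, map_one, hff, it51, it53, it60, it63, it65, it69, it70, it71]) <;> linear_combination (0 : K) * h2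
  · (try simp only [map_add, map_mul, map_pow, map_zero, map_one, hff, it51, it53, it60, it63, it65, it69, it70, it71]) <;> linear_combination (0 : K) * h2
  · (try simp only [map_add, map_mul, map_pow, map_zero, map_one, hff, it51, it53, it60, it63, it65, it69, it70, it71]) <;> linear_combination (0 : K) * h2
  · (try simp only [map_add, map_mul, map_pow, map_zero, map_one, hff, it51, it53, it60, it63, it65, it69, it70, it71]) <;> linear_combination (0 : K) * h2
  · (try simp only [map_add, map_mul, map_pow, map_zero, map_one, hff, it51, it53, it60, it63, it65, it69, it70, it71]) <;> linear_combination (0 : K) * h2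
  · (try simp only [map_add, map_mul, map_pow, map_zero, map_one, hff, it51, it53, it60, it63, it65, it69, it70, it71]) <;> linear_combination (0 : K) * h2
  · (try simp only [map_add, map_mul, map_pow, map_zero, map_one, hff, it51, it53, it60, it63, it65, it69, it70, it71]) <;> linear_combination (-y*(f l49)) * h2
  · (try simp only [map_add, map_mul, map_pow, map_zero, map_one, hff, it51, it53, it60, it63, it65, it69, it70, it71]) <;> linear_combination (0 : K) * h2
  · (try simp only [map_add, map_mul, map_pow, map_zero, map_one, hff, it51, it53, it60, it63, it65, it69, it70, it71]) <;> linear_combination (-t63*y) * h2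
  · (try simp only [map_add, map_mul, map_pow, map_zero, map_one, hff, it51, it53, it60, it63, it65, it69, it70, it71]) <;> linear_combination (-(f l52)*(f y)) * h2
  · (try simp only [map_add, map_mul, map_pow, map_zero, map_one, hff, it51, it53, it60, it63, it65, it69, it70, it71]) <;> linear_combination (-t63*(f y)) * h2
  · (try simp only [map_add, map_mul, map_pow, map_zero, map_one, hff, it51, it53, it60, it63, it65, it69, it70, it71]) <;> linear_combination (0 : K) * h2
  · (try simp only [map_add, map_mul, map_pow, map_zero, map_one, hff, it51, it53, it60, it63, it65, it69, it70, it71]) <;> linear_combination (-l66*(f y) - y*(f l66) - l49*(f l45)*(f y) - l52*y*(f l41) - 2*t63*y*(f y)) * h2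
  · (try simp only [map_add, map_mul, map_pow, map_zero, map_one, hff, it51, it53, it60, it63, it65, it69, it70, it71]) <;> linear_combination (-l49*(f l52)*(f y) - l52*y*(f l49)) * h2

theorem st_LC_1_1_1_1_1 {l37 l41 l48 l49 l52 l54 l55 l66 t51 t53 t60 t63 t65 t69 t70 t71 y : K} (hff : ∀ t, f (f t) = t) (it51 : f t51 = t51) (it53 : f t53 = t53) (it60 : f t60 = t60) (it63 : f t63 = t63) (it65 : f t65 = t65) (it69 : f t69 = t69) (it70 : f t70 = t70) (it71 : f t71 = t71) :
    E f 0 0 0 0 0 (y) 0 0 0 0 0 0 0 0 0 0 0 0 0 0 0 0 0 0 * E f 0 (l37) 0 0 0 (l41) 0 (((f l37)) * y) 0 0 (l48) (l49) (t51) (l52) (t53) (l54) (l55) (t60) (t63) (t65) (l66) (t69) (t70) (t71) = E f 0 (l37) 0 0 0 (l41) 0 0 0 0 (l48) (l49) (t51) (l52) (t53) (l54 + y*(f l48)) (l55 + t51*y) (t60) (t63) (t65 + l49*(f y) + y*(f l49)) (l66 + y*(f l52)) (t69) (t70 + l55*(f y) + y*(f l55) + t51*y*(f y)) (t71 + l48*l52*(f y) + l49*t51*(f y) + t51*y*(f l49) + y*(f l48)*(f l52)) * E f 0 0 0 0 0 (y) 0 0 0 0 0 0 0 0 0 0 0 0 0 0 0 0 0 0 := by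
  have h2 : (2 : K) = 0 := CharTwo.two_eq_zero
  unfold E
  rw [W_mul, W_mul]
  apply W_congr
  · (try simp only [map_add, map_mul, map_pow, map_zero, map_one, hff, it51, it53, it60, it63, it65, it69, it70, it71]) <;> linear_combination (0 : K) * h2
  · (try simp only [map_add, map_mul, map_pow, map_zero, map_one, hff, it51, it53, it60, it63, it65, it69, it70, it71]) <;> linear_combination (0 : K) * h2
  · (try simp only [map_add, map_mul, map_pow, map_zero, map_one, hff, it51, it53, it60, it63, it65, it69, it70, it71]) <;> linear_combination (0 : K) * h2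
  · (try simp only [map_add, map_mul, map_pow, map_zero, map_one, hff, it51, it53, it60, it63, it65, it69, it70, it71]) <;> linear_combination (0 : K) * h2
  · (try simp only [map_add, map_mul, map_pow, map_zero, map_one, hff, it51, it53, it60, it63, it65, it69, it70, it71]) <;> linear_combination (0 : K) * h2
  · (try simp only [map_add, map_mul, map_pow, map_zero, map_one, hff, it51, it53, it60, it63, it65, it69, it70, it71]) <;> linear_combination (0 : K) * h2
  · (try simp only [map_add, map_mul, map_pow, map_zero, map_one, hff, it51, it53, it60, it63, it65, it69, it70, it71]) <;> linear_combination (0 : K) * h2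
  · (try simp only [map_add, map_mul, map_pow, map_zero, map_one, hff, it51, it53, it60, it63, it65, it69, it70, it71]) <;> linear_combination (0 : K) * h2
  · (try simp only [map_add, map_mul, map_pow, map_zero, map_one, hff, it51, it53, it60, it63, it65, it69, it70, it71]) <;> linear_combination (0 : K) * h2
  · (try simp only [map_add, map_mul, map_pow, map_zero, map_one, hff, it51, it53, it60, it63, it65, it69, it70, it71]) <;> linear_combination (0 : K) * h2
  · (try simp only [map_add, map_mul, map_pow, map_zero, map_one, hff, it51, it53, it60, it63, it65, it69, it70, it71]) <;> linear_combination (0 : K) * h2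
  · (try simp only [map_add, map_mul, map_pow, map_zero, map_one, hff, it51, it53, it60, it63, it65, it69, it70, it71]) <;> linear_combination (0 : K) * h2
  · (try simp only [map_add, map_mul, map_pow, map_zero, map_one, hff, it51, it53, it60, it63, it65, it69, it70, it71]) <;> linear_combination (0 : K) * h2
  · (try simp only [map_add, map_mul, map_pow, map_zero, map_one, hff, it51, it53, it60, it63, it65, it69, it70, it71]) <;> linear_combination (0 : K) * h2
  · (try simp only [map_add, map_mul, map_pow, map_zero, map_one, hff, it51, it53, it60, it63, it65, it69, it70, it71]) <;> linear_combination (0 : K) * h2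
  · (try simp only [map_add, map_mul, map_pow, map_zero, map_one, hff, it51, it53, it60, it63, it65, it69, it70, it71]) <;> linear_combination (0 : K) * h2
  · (try simp only [map_add, map_mul, map_pow, map_zero, map_one, hff, it51, it53, it60, it63, it65, it69, it70, it71]) <;> linear_combination (0 : K) * h2
  · (try simp only [map_add, map_mul, map_pow, map_zero, map_one, hff, it51, it53, it60, it63, it65, it69, it70, it71]) <;> linear_combination (0 : K) * h2
  · (try simp only [map_add, map_mul, map_pow, map_zero, map_one, hff, it51, it53, it60, it63, it65, it69, it70, it71]) <;> linear_combination (-y*(f l48)) * h2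
  · (try simp only [map_add, map_mul, map_pow, map_zero, map_one, hff, it51, it53, it60, it63, it65, it69, it70, it71]) <;> linear_combination (-t51*y) * h2
  · (try simp only [map_add, map_mul, map_pow, map_zero, map_one, hff, it51, it53, it60, it63, it65, it69, it70, it71]) <;> linear_combination (0 : K) * h2
  · (try simp only [map_add, map_mul, map_pow, map_zero, map_one, hff, it51, it53, it60, it63, it65, it69, it70, it71]) <;> linear_combination (0 : K) * h2
  · (try simp only [map_add, map_mul, map_pow, map_zero, map_one, hff, it51, it53, it60, it63, it65, it69, it70, it71]) <;> linear_combination (0 : K) * h2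
  · (try simp only [map_add, map_mul, map_pow, map_zero, map_one, hff, it51, it53, it60, it63, it65, it69, it70, it71]) <;> linear_combination (l37*(f y)) * h2
  · (try simp only [map_add, map_mul, map_pow, map_zero, map_one, hff, it51, it53, it60, it63, it65, it69, it70, it71]) <;> linear_combination (0 : K) * h2
  · (try simp only [map_add, map_mul, map_pow, map_zero, map_one, hff, it51, it53, it60, it63, it65, it69, it70, it71]) <;> linear_combination (0 : K) * h2
  · (try simp only [map_add, map_mul, map_pow, map_zero, map_one, hff, it51, it53, it60, it63, it65, it69, it70, it71]) <;> linear_combination (0 : K) * h2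
  · (try simp only [map_add, map_mul, map_pow, map_zero, map_one, hff, it51, it53, it60, it63, it65, it69, it70, it71]) <;> linear_combination (0 : K) * h2
  · (try simp only [map_add, map_mul, map_pow, map_zero, map_one, hff, it51, it53, it60, it63, it65, it69, it70, it71]) <;> linear_combination (0 : K) * h2
  · (try simp only [map_add, map_mul, map_pow, map_zero, map_one, hff, it51, it53, it60, it63, it65, it69, it70, it71]) <;> linear_combination (-y*(f l49)) * h2
  · (try simp only [map_add, map_mul, map_pow, map_zero, map_one, hff, it51, it53, it60, it63, it65, it69, it70, it71]) <;> linear_combination (-y*(f l52) + l37*l49*(f y)) * h2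
  · (try simp only [map_add, map_mul, map_pow, map_zero, map_one, hff, it51, it53, it60, it63, it65, it69, it70, it71]) <;> linear_combination (l37*(f l48)*(f y)) * h2
  · (try simp only [map_add, map_mul, map_pow, map_zero, map_one, hff, it51, it53, it60, it63, it65, it69, it70, it71]) <;> linear_combination (0 : K) * h2
  · (try simp only [map_add, map_mul, map_pow, map_zero, map_one, hff, it51, it53, it60, it63, it65, it69, it70, it71]) <;> linear_combination (l37*l52*(f y)) * h2
  · (try simp only [map_add, map_mul, map_pow, map_zero, map_one, hff, it51, it53, it60, it63, it65, it69, it70, it71]) <;> linear_combination (-y*(f l55) + l37*l54*(f y) - t51*y*(f l41) - t51*y*(f y)) * h2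
  · (try simp only [map_add, map_mul, map_pow, map_zero, map_one, hff, it51, it53, it60, it63, it65, it69, it70, it71]) <;> linear_combination (-t51*y*(f l49) - y*(f l48)*(f l52) + l37*l49*(f l48)*(f y)) * h2

theorem st_LC_1_1_1_1_1_1_1_1_1 {l37 l52 l55 l66 t51 t53 t60 t63 t65 t69 t70 t71 w : K} (hff : ∀ t, f (f t) = t) (it51 : f t51 = t51) (it53 : f t53 = t53) (it60 : f t60 = t60) (it63 : f t63 = t63) (it65 : f t65 = t65) (it69 : f t69 = t69) (it70 : f t70 = t70) (it71 : f t71 = t71) (iw : f w = w) :
    E f 0 0 0 0 0 0 0 0 0 (w) 0 0 0 0 0 0 0 0 0 0 0 0 0 0 * E f 0 (l37) 0 0 0 0 0 0 0 0 ((l37) * w) 0 (t51) (l52) (t53) 0 (l55) (t60) (t63) (t65) (l66) (t69) (t70) (t71) = E f 0 (l37) 0 0 0 0 0 0 0 0 0 0 (t51 + l37*w*(f l37)) (l52) (t53) 0 (l55) (t60) (t63) (t65 + t60*w) (l66) (t69) (t70) (t71 + t69*w) * E f 0 0 0 0 0 0 0 0 0 (w) 0 0 0 0 0 0 0 0 0 0 0 0 0 0 := by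
  have h2 : (2 : K) = 0 := CharTwo.two_eq_zero
  unfold E
  rw [W_mul, W_mul]
  apply W_congr
  · (try simp only [map_add, map_mul, map_pow, map_zero, map_one, hff, it51, it53, it60, it63, it65, it69, it70, it71, iw]) <;> linear_combination (0 : K) * h2
  · (try simp only [map_add, map_mul, map_pow, map_zero, map_one, hff, it51, it53, it60, it63, it65, it69, it70, it71, iw]) <;> linear_combination (0 : K) * h2
  · (try simp only [map_add, map_mul, map_pow, map_zero, map_one, hff, it51, it53, it60, it63, it65, it69, it70, it71, iw]) <;> linear_combination (0 : K) * h2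
  · (try simp only [map_add, map_mul, map_pow, map_zero, map_one, hff, it51, it53, it60, it63, it65, it69, it70, it71, iw]) <;> linear_combination (0 : K) * h2
  · (try simp only [map_add, map_mul, map_pow, map_zero, map_one, hff, it51, it53, it60, it63, it65, it69, it70, it71, iw]) <;> linear_combination (0 : K) * h2
  · (try simp only [map_add, map_mul, map_pow, map_zero, map_one, hff, it51, it53, it60, it63, it65, it69, it70, it71, iw]) <;> linear_combination (0 : K) * h2
  · (try simp only [map_add, map_mul, map_pow, map_zero, map_one, hff, it51, it53, it60, it63, it65, it69, it70, it71, iw]) <;> linear_combination (0 : K) * h2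
  · (try simp only [map_add, map_mul, map_pow, map_zero, map_one, hff, it51, it53, it60, it63, it65, it69, it70, it71, iw]) <;> linear_combination (0 : K) * h2
  · (try simp only [map_add, map_mul, map_pow, map_zero, map_one, hff, it51, it53, it60, it63, it65, it69, it70, it71, iw]) <;> linear_combination (0 : K) * h2
  · (try simp only [map_add, map_mul, map_pow, map_zero, map_one, hff, it51, it53, it60, it63, it65, it69, it70, it71, iw]) <;> linear_combination (0 : K) * h2
  · (try simp only [map_add, map_mul, map_pow, map_zero, map_one, hff, it51, it53, it60, it63, it65, it69, it70, it71, iw]) <;> linear_combination (0 : K) * h2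
  · (try simp only [map_add, map_mul, map_pow, map_zero, map_one, hff, it51, it53, it60, it63, it65, it69, it70, it71, iw]) <;> linear_combination (0 : K) * h2
  · (try simp only [map_add, map_mul, map_pow, map_zero, map_one, hff, it51, it53, it60, it63, it65, it69, it70, it71, iw]) <;> linear_combination (l37*w) * h2
  · (try simp only [map_add, map_mul, map_pow, map_zero, map_one, hff, it51, it53, it60, it63, it65, it69, it70, it71, iw]) <;> linear_combination (0 : K) * h2
  · (try simp only [map_add, map_mul, map_pow, map_zero, map_one, hff, it51, it53, it60, it63, it65, it69, it70, it71, iw]) <;> linear_combination (w*(f l37)) * h2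
  · (try simp only [map_add, map_mul, map_pow, map_zero, map_one, hff, it51, it53, it60, it63, it65, it69, it70, it71, iw]) <;> linear_combination (0 : K) * h2
  · (try simp only [map_add, map_mul, map_pow, map_zero, map_one, hff, it51, it53, it60, it63, it65, it69, it70, it71, iw]) <;> linear_combination (0 : K) * h2
  · (try simp only [map_add, map_mul, map_pow, map_zero, map_one, hff, it51, it53, it60, it63, it65, it69, it70, it71, iw]) <;> linear_combination (0 : K) * h2
  · (try simp only [map_add, map_mul, map_pow, map_zero, map_one, hff, it51, it53, it60, it63, it65, it69, it70, it71, iw]) <;> linear_combination (0 : K) * h2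
  · (try simp only [map_add, map_mul, map_pow, map_zero, map_one, hff, it51, it53, it60, it63, it65, it69, it70, it71, iw]) <;> linear_combination (0 : K) * h2
  · (try simp only [map_add, map_mul, map_pow, map_zero, map_one, hff, it51, it53, it60, it63, it65, it69, it70, it71, iw]) <;> linear_combination (0 : K) * h2
  · (try simp only [map_add, map_mul, map_pow, map_zero, map_one, hff, it51, it53, it60, it63, it65, it69, it70, it71, iw]) <;> linear_combination (0 : K) * h2
  · (try simp only [map_add, map_mul, map_pow, map_zero, map_one, hff, it51, it53, it60, it63, it65, it69, it70, it71, iw]) <;> linear_combination (0 : K) * h2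
  · (try simp only [map_add, map_mul, map_pow, map_zero, map_one, hff, it51, it53, it60, it63, it65, it69, it70, it71, iw]) <;> linear_combination (0 : K) * h2
  · (try simp only [map_add, map_mul, map_pow, map_zero, map_one, hff, it51, it53, it60, it63, it65, it69, it70, it71, iw]) <;> linear_combination (0 : K) * h2
  · (try simp only [map_add, map_mul, map_pow, map_zero, map_one, hff, it51, it53, it60, it63, it65, it69, it70, it71, iw]) <;> linear_combination (0 : K) * h2
  · (try simp only [map_add, map_mul, map_pow, map_zero, map_one, hff, it51, it53, it60, it63, it65, it69, it70, it71, iw]) <;> linear_combination (0 : K) * h2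
  · (try simp only [map_add, map_mul, map_pow, map_zero, map_one, hff, it51, it53, it60, it63, it65, it69, it70, it71, iw]) <;> linear_combination (0 : K) * h2
  · (try simp only [map_add, map_mul, map_pow, map_zero, map_one, hff, it51, it53, it60, it63, it65, it69, it70, it71, iw]) <;> linear_combination (0 : K) * h2
  · (try simp only [map_add, map_mul, map_pow, map_zero, map_one, hff, it51, it53, it60, it63, it65, it69, it70, it71, iw]) <;> linear_combination (-t60*w) * h2
  · (try simp only [map_add, map_mul, map_pow, map_zero, map_one, hff, it51, it53, it60, it63, it65, it69, it70, it71, iw]) <;> linear_combination (0 : K) * h2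
  · (try simp only [map_add, map_mul, map_pow, map_zero, map_one, hff, it51, it53, it60, it63, it65, it69, it70, it71, iw]) <;> linear_combination (0 : K) * h2
  · (try simp only [map_add, map_mul, map_pow, map_zero, map_one, hff, it51, it53, it60, it63, it65, it69, it70, it71, iw]) <;> linear_combination (0 : K) * h2
  · (try simp only [map_add, map_mul, map_pow, map_zero, map_one, hff, it51, it53, it60, it63, it65, it69, it70, it71, iw]) <;> linear_combination (0 : K) * h2
  · (try simp only [map_add, map_mul, map_pow, map_zero, map_one, hff, it51, it53, it60, it63, it65, it69, it70, it71, iw]) <;> linear_combination (0 : K) * h2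
  · (try simp only [map_add, map_mul, map_pow, map_zero, map_one, hff, it51, it53, it60, it63, it65, it69, it70, it71, iw]) <;> linear_combination (-t69*w) * h2

theorem st_LC_1_1_1_1_1_1_1_1_1_1 {l37 l52 l55 l66 t53 t60 t63 t65 t69 t70 t71 y : K} (hff : ∀ t, f (f t) = t) (it53 : f t53 = t53) (it60 : f t60 = t60) (it63 : f t63 = t63) (it65 : f t65 = t65) (it69 : f t69 = t69) (it70 : f t70 = t70) (it71 : f t71 = t71) :
    E f 0 0 0 0 0 0 0 0 0 0 (y) 0 0 0 0 0 0 0 0 0 0 0 0 0 * E f 0 (l37) 0 0 0 0 0 0 0 0 0 0 ((l37) * f y + f (l37) * y) (l52) (t53) 0 (l55) (t60) (t63) (t65) (l66) (t69) (t70) (t71) = E f 0 (l37) 0 0 0 0 0 0 0 0 0 0 0 (l52) (t53) 0 (l55) (t60) (t63) (t65) (l66 + t60*y) (t69) (t70) (t71 + l66*(f y) + y*(f l66) + t60*y*(f y)) * E f 0 0 0 0 0 0 0 0 0 0 (y) 0 0 0 0 0 0 0 0 0 0 0 0 0 := by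
  have h2 : (2 : K) = 0 := CharTwo.two_eq_zero
  unfold E
  rw [W_mul, W_mul]
  apply W_congr
  · (try simp only [map_add, map_mul, map_pow, map_zero, map_one, hff, it53, it60, it63, it65, it69, it70, it71]) <;> linear_combination (0 : K) * h2
  · (try simp only [map_add, map_mul, map_pow, map_zero, map_one, hff, it53, it60, it63, it65, it69, it70, it71]) <;> linear_combination (0 : K) * h2
  · (try simp only [map_add, map_mul, map_pow, map_zero, map_one, hff, it53, it60, it63, it65, it69, it70, it71]) <;> linear_combination (0 : K) * h2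
  · (try simp only [map_add, map_mul, map_pow, map_zero, map_one, hff, it53, it60, it63, it65, it69, it70, it71]) <;> linear_combination (0 : K) * h2
  · (try simp only [map_add, map_mul, map_pow, map_zero, map_one, hff, it53, it60, it63, it65, it69, it70, it71]) <;> linear_combination (0 : K) * h2
  · (try simp only [map_add, map_mul, map_pow, map_zero, map_one, hff, it53, it60, it63, it65, it69, it70, it71]) <;> linear_combination (0 : K) * h2
  · (try simp only [map_add, map_mul, map_pow, map_zero, map_one, hff, it53, it60, it63, it65, it69, it70, it71]) <;> linear_combination (0 : K) * h2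
  · (try simp only [map_add, map_mul, map_pow, map_zero, map_one, hff, it53, it60, it63, it65, it69, it70, it71]) <;> linear_combination (0 : K) * h2
  · (try simp only [map_add, map_mul, map_pow, map_zero, map_one, hff, it53, it60, it63, it65, it69, it70, it71]) <;> linear_combination (0 : K) * h2
  · (try simp only [map_add, map_mul, map_pow, map_zero, map_one, hff, it53, it60, it63, it65, it69, it70, it71]) <;> linear_combination (0 : K) * h2
  · (try simp only [map_add, map_mul, map_pow, map_zero, map_one, hff, it53, it60, it63, it65, it69, it70, it71]) <;> linear_combination (0 : K) * h2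
  · (try simp only [map_add, map_mul, map_pow, map_zero, map_one, hff, it53, it60, it63, it65, it69, it70, it71]) <;> linear_combination (0 : K) * h2
  · (try simp only [map_add, map_mul, map_pow, map_zero, map_one, hff, it53, it60, it63, it65, it69, it70, it71]) <;> linear_combination (0 : K) * h2
  · (try simp only [map_add, map_mul, map_pow, map_zero, map_one, hff, it53, it60, it63, it65, it69, it70, it71]) <;> linear_combination (0 : K) * h2
  · (try simp only [map_add, map_mul, map_pow, map_zero, map_one, hff, it53, it60, it63, it65, it69, it70, it71]) <;> linear_combination (0 : K) * h2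
  · (try simp only [map_add, map_mul, map_pow, map_zero, map_one, hff, it53, it60, it63, it65, it69, it70, it71]) <;> linear_combination (l37*(f y) + y*(f l37)) * h2
  · (try simp only [map_add, map_mul, map_pow, map_zero, map_one, hff, it53, it60, it63, it65, it69, it70, it71]) <;> linear_combination (0 : K) * h2
  · (try simp only [map_add, map_mul, map_pow, map_zero, map_one, hff, it53, it60, it63, it65, it69, it70, it71]) <;> linear_combination (0 : K) * h2
  · (try simp only [map_add, map_mul, map_pow, map_zero, map_one, hff, it53, it60, it63, it65, it69, it70, it71]) <;> linear_combination (0 : K) * h2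
  · (try simp only [map_add, map_mul, map_pow, map_zero, map_one, hff, it53, it60, it63, it65, it69, it70, it71]) <;> linear_combination (0 : K) * h2
  · (try simp only [map_add, map_mul, map_pow, map_zero, map_one, hff, it53, it60, it63, it65, it69, it70, it71]) <;> linear_combination (0 : K) * h2
  · (try simp only [map_add, map_mul, map_pow, map_zero, map_one, hff, it53, it60, it63, it65, it69, it70, it71]) <;> linear_combination (0 : K) * h2
  · (try simp only [map_add, map_mul, map_pow, map_zero, map_one, hff, it53, it60, it63, it65, it69, it70, it71]) <;> linear_combination (0 : K) * h2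
  · (try simp only [map_add, map_mul, map_pow, map_zero, map_one, hff, it53, it60, it63, it65, it69, it70, it71]) <;> linear_combination (0 : K) * h2
  · (try simp only [map_add, map_mul, map_pow, map_zero, map_one, hff, it53, it60, it63, it65, it69, it70, it71]) <;> linear_combination (0 : K) * h2
  · (try simp only [map_add, map_mul, map_pow, map_zero, map_one, hff, it53, it60, it63, it65, it69, it70, it71]) <;> linear_combination (0 : K) * h2
  · (try simp only [map_add, map_mul, map_pow, map_zero, map_one, hff, it53, it60, it63, it65, it69, it70, it71]) <;> linear_combination (0 : K) * h2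
  · (try simp only [map_add, map_mul, map_pow, map_zero, map_one, hff, it53, it60, it63, it65, it69, it70, it71]) <;> linear_combination (0 : K) * h2
  · (try simp only [map_add, map_mul, map_pow, map_zero, map_one, hff, it53, it60, it63, it65, it69, it70, it71]) <;> linear_combination (0 : K) * h2
  · (try simp only [map_add, map_mul, map_pow, map_zero, map_one, hff, it53, it60, it63, it65, it69, it70, it71]) <;> linear_combination (0 : K) * h2
  · (try simp only [map_add, map_mul, map_pow, map_zero, map_one, hff, it53, it60, it63, it65, it69, it70, it71]) <;> linear_combination (-t60*y) * h2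
  · (try simp only [map_add, map_mul, map_pow, map_zero, map_one, hff, it53, it60, it63, it65, it69, it70, it71]) <;> linear_combination (0 : K) * h2
  · (try simp only [map_add, map_mul, map_pow, map_zero, map_one, hff, it53, it60, it63, it65, it69, it70, it71]) <;> linear_combination (-t60*(f y)) * h2
  · (try simp only [map_add, map_mul, map_pow, map_zero, map_one, hff, it53, it60, it63, it65, it69, it70, it71]) <;> linear_combination (0 : K) * h2
  · (try simp only [map_add, map_mul, map_pow, map_zero, map_one, hff, it53, it60, it63, it65, it69, it70, it71]) <;> linear_combination (0 : K) * h2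
  · (try simp only [map_add, map_mul, map_pow, map_zero, map_one, hff, it53, it60, it63, it65, it69, it70, it71]) <;> linear_combination (-l66*(f y) - y*(f l66) - 2*t60*y*(f y)) * h2

theorem st_LC_1_1_1_1_1_1_1_1_1_1_1 {l37 l55 l66 t53 t60 t63 t65 t69 t70 t71 y : K} (hff : ∀ t, f (f t) = t) (it53 : f t53 = t53) (it60 : f t60 = t60) (it63 : f t63 = t63) (it65 : f t65 = t65) (it69 : f t69 = t69) (it70 : f t70 = t70) (it71 : f t71 = t71) :
    E f 0 0 0 0 0 0 0 0 0 0 0 (y) 0 0 0 0 0 0 0 0 0 0 0 0 * E f 0 (l37) 0 0 0 0 0 0 0 0 0 0 0 (((f l37)) * y) (t53) 0 (l55) (t60) (t63) (t65) (l66) (t69) (t70) (t71) = E f 0 (l37) 0 0 0 0 0 0 0 0 0 0 0 0 (t53) 0 (l55) (t60) (t63) (t65) (l66) (t69) (t70) (t71 + l55*(f y) + y*(f l55)) * E f 0 0 0 0 0 0 0 0 0 0 0 (y) 0 0 0 0 0 0 0 0 0 0 0 0 := by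
  have h2 : (2 : K) = 0 := CharTwo.two_eq_zero
  unfold E
  rw [W_mul, W_mul]
  apply W_congr
  · (try simp only [map_add, map_mul, map_pow, map_zero, map_one, hff, it53, it60, it63, it65, it69, it70, it71]) <;> linear_combination (0 : K) * h2
  · (try simp only [map_add, map_mul, map_pow, map_zero, map_one, hff, it53, it60, it63, it65, it69, it70, it71]) <;> linear_combination (0 : K) * h2
  · (try simp only [map_add, map_mul, map_pow, map_zero, map_one, hff, it53, it60, it63, it65, it69, it70, it71]) <;> linear_combination (0 : K) * h2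
  · (try simp only [map_add, map_mul, map_pow, map_zero, map_one, hff, it53, it60, it63, it65, it69, it70, it71]) <;> linear_combination (0 : K) * h2
  · (try simp only [map_add, map_mul, map_pow, map_zero, map_one, hff, it53, it60, it63, it65, it69, it70, it71]) <;> linear_combination (0 : K) * h2
  · (try simp only [map_add, map_mul, map_pow, map_zero, map_one, hff, it53, it60, it63, it65, it69, it70, it71]) <;> linear_combination (0 : K) * h2
  · (try simp only [map_add, map_mul, map_pow, map_zero, map_one, hff, it53, it60, it63, it65, it69, it70, it71]) <;> linear_combination (0 : K) * h2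
  · (try simp only [map_add, map_mul, map_pow, map_zero, map_one, hff, it53, it60, it63, it65, it69, it70, it71]) <;> linear_combination (0 : K) * h2
  · (try simp only [map_add, map_mul, map_pow, map_zero, map_one, hff, it53, it60, it63, it65, it69, it70, it71]) <;> linear_combination (0 : K) * h2
  · (try simp only [map_add, map_mul, map_pow, map_zero, map_one, hff, it53, it60, it63, it65, it69, it70, it71]) <;> linear_combination (0 : K) * h2
  · (try simp only [map_add, map_mul, map_pow, map_zero, map_one, hff, it53, it60, it63, it65, it69, it70, it71]) <;> linear_combination (0 : K) * h2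
  · (try simp only [map_add, map_mul, map_pow, map_zero, map_one, hff, it53, it60, it63, it65, it69, it70, it71]) <;> linear_combination (0 : K) * h2
  · (try simp only [map_add, map_mul, map_pow, map_zero, map_one, hff, it53, it60, it63, it65, it69, it70, it71]) <;> linear_combination (0 : K) * h2
  · (try simp only [map_add, map_mul, map_pow, map_zero, map_one, hff, it53, it60, it63, it65, it69, it70, it71]) <;> linear_combination (0 : K) * h2
  · (try simp only [map_add, map_mul, map_pow, map_zero, map_one, hff, it53, it60, it63, it65, it69, it70, it71]) <;> linear_combination (0 : K) * h2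
  · (try simp only [map_add, map_mul, map_pow, map_zero, map_one, hff, it53, it60, it63, it65, it69, it70, it71]) <;> linear_combination (0 : K) * h2
  · (try simp only [map_add, map_mul, map_pow, map_zero, map_one, hff, it53, it60, it63, it65, it69, it70, it71]) <;> linear_combination (y*(f l37)) * h2
  · (try simp only [map_add, map_mul, map_pow, map_zero, map_one, hff, it53, it60, it63, it65, it69, it70, it71]) <;> linear_combination (0 : K) * h2
  · (try simp only [map_add, map_mul, map_pow, map_zero, map_one, hff, it53, it60, it63, it65, it69, it70, it71]) <;> linear_combination (0 : K) * h2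
  · (try simp only [map_add, map_mul, map_pow, map_zero, map_one, hff, it53, it60, it63, it65, it69, it70, it71]) <;> linear_combination (0 : K) * h2
  · (try simp only [map_add, map_mul, map_pow, map_zero, map_one, hff, it53, it60, it63, it65, it69, it70, it71]) <;> linear_combination (0 : K) * h2
  · (try simp only [map_add, map_mul, map_pow, map_zero, map_one, hff, it53, it60, it63, it65, it69, it70, it71]) <;> linear_combination (0 : K) * h2
  · (try simp only [map_add, map_mul, map_pow, map_zero, map_one, hff, it53, it60, it63, it65, it69, it70, it71]) <;> linear_combination (0 : K) * h2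
  · (try simp only [map_add, map_mul, map_pow, map_zero, map_one, hff, it53, it60, it63, it65, it69, it70, it71]) <;> linear_combination (0 : K) * h2
  · (try simp only [map_add, map_mul, map_pow, map_zero, map_one, hff, it53, it60, it63, it65, it69, it70, it71]) <;> linear_combination (0 : K) * h2
  · (try simp only [map_add, map_mul, map_pow, map_zero, map_one, hff, it53, it60, it63, it65, it69, it70, it71]) <;> linear_combination (0 : K) * h2
  · (try simp only [map_add, map_mul, map_pow, map_zero, map_one, hff, it53, it60, it63, it65, it69, it70, it71]) <;> linear_combination (l37*(f y)) * h2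
  · (try simp only [map_add, map_mul, map_pow, map_zero, map_one, hff, it53, it60, it63, it65, it69, it70, it71]) <;> linear_combination (0 : K) * h2
  · (try simp only [map_add, map_mul, map_pow, map_zero, map_one, hff, it53, it60, it63, it65, it69, it70, it71]) <;> linear_combination (0 : K) * h2
  · (try simp only [map_add, map_mul, map_pow, map_zero, map_one, hff, it53, it60, it63, it65, it69, it70, it71]) <;> linear_combination (0 : K) * h2
  · (try simp only [map_add, map_mul, map_pow, map_zero, map_one, hff, it53, it60, it63, it65, it69, it70, it71]) <;> linear_combination (0 : K) * h2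
  · (try simp only [map_add, map_mul, map_pow, map_zero, map_one, hff, it53, it60, it63, it65, it69, it70, it71]) <;> linear_combination (0 : K) * h2
  · (try simp only [map_add, map_mul, map_pow, map_zero, map_one, hff, it53, it60, it63, it65, it69, it70, it71]) <;> linear_combination (0 : K) * h2
  · (try simp only [map_add, map_mul, map_pow, map_zero, map_one, hff, it53, it60, it63, it65, it69, it70, it71]) <;> linear_combination (0 : K) * h2
  · (try simp only [map_add, map_mul, map_pow, map_zero, map_one, hff, it53, it60, it63, it65, it69, it70, it71]) <;> linear_combination (0 : K) * h2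
  · (try simp only [map_add, map_mul, map_pow, map_zero, map_one, hff, it53, it60, it63, it65, it69, it70, it71]) <;> linear_combination (-y*(f l55)) * h2

theorem st_LC_1_1_1_1_1_1_1_1_1_1_1_1_1 {l37 l66 t53 t60 t63 t69 t70 t71 y : K} (hff : ∀ t, f (f t) = t) (it53 : f t53 = t53) (it60 : f t60 = t60) (it63 : f t63 = t63) (it69 : f t69 = t69) (it70 : f t70 = t70) (it71 : f t71 = t71) :
    E f 0 0 0 0 0 0 0 0 0 0 0 0 0 0 0 (y) 0 0 0 0 0 0 0 0 * E f 0 (l37) 0 0 0 0 0 0 0 0 0 0 0 0 (t53) 0 ((l37) * y) (t60) (t63) 0 (l66) (t69) (t70) (t71) = E f 0 (l37) 0 0 0 0 0 0 0 0 0 0 0 0 (t53) 0 0 (t60) (t63) 0 (l66) (t69) (t70) (t71) * E f 0 0 0 0 0 0 0 0 0 0 0 0 0 0 0 (y) 0 0 0 0 0 0 0 0 := by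
  have h2 : (2 : K) = 0 := CharTwo.two_eq_zero
  unfold E
  rw [W_mul, W_mul]
  apply W_congr
  · (try simp only [map_add, map_mul, map_pow, map_zero, map_one, hff, it53, it60, it63, it69, it70, it71]) <;> linear_combination (0 : K) * h2
  · (try simp only [map_add, map_mul, map_pow, map_zero, map_one, hff, it53, it60, it63, it69, it70, it71]) <;> linear_combination (0 : K) * h2
  · (try simp only [map_add, map_mul, map_pow, map_zero, map_one, hff, it53, it60, it63, it69, it70, it71]) <;> linear_combination (0 : K) * h2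
  · (try simp only [map_add, map_mul, map_pow, map_zero, map_one, hff, it53, it60, it63, it69, it70, it71]) <;> linear_combination (0 : K) * h2
  · (try simp only [map_add, map_mul, map_pow, map_zero, map_one, hff, it53, it60, it63, it69, it70, it71]) <;> linear_combination (0 : K) * h2
  · (try simp only [map_add, map_mul, map_pow, map_zero, map_one, hff, it53, it60, it63, it69, it70, it71]) <;> linear_combination (0 : K) * h2
  · (try simp only [map_add, map_mul, map_pow, map_zero, map_one, hff, it53, it60, it63, it69, it70, it71]) <;> linear_combination (0 : K) * h2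
  · (try simp only [map_add, map_mul, map_pow, map_zero, map_one, hff, it53, it60, it63, it69, it70, it71]) <;> linear_combination (0 : K) * h2
  · (try simp only [map_add, map_mul, map_pow, map_zero, map_one, hff, it53, it60, it63, it69, it70, it71]) <;> linear_combination (0 : K) * h2
  · (try simp only [map_add, map_mul, map_pow, map_zero, map_one, hff, it53, it60, it63, it69, it70, it71]) <;> linear_combination (0 : K) * h2
  · (try simp only [map_add, map_mul, map_pow, map_zero, map_one, hff, it53, it60, it63, it69, it70, it71]) <;> linear_combination (0 : K) * h2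
  · (try simp only [map_add, map_mul, map_pow, map_zero, map_one, hff, it53, it60, it63, it69, it70, it71]) <;> linear_combination (0 : K) * h2
  · (try simp only [map_add, map_mul, map_pow, map_zero, map_one, hff, it53, it60, it63, it69, it70, it71]) <;> linear_combination (0 : K) * h2
  · (try simp only [map_add, map_mul, map_pow, map_zero, map_one, hff, it53, it60, it63, it69, it70, it71]) <;> linear_combination (0 : K) * h2
  · (try simp only [map_add, map_mul, map_pow, map_zero, map_one, hff, it53, it60, it63, it69, it70, it71]) <;> linear_combination (0 : K) * h2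
  · (try simp only [map_add, map_mul, map_pow, map_zero, map_one, hff, it53, it60, it63, it69, it70, it71]) <;> linear_combination (0 : K) * h2
  · (try simp only [map_add, map_mul, map_pow, map_zero, map_one, hff, it53, it60, it63, it69, it70, it71]) <;> linear_combination (0 : K) * h2
  · (try simp only [map_add, map_mul, map_pow, map_zero, map_one, hff, it53, it60, it63, it69, it70, it71]) <;> linear_combination (0 : K) * h2
  · (try simp only [map_add, map_mul, map_pow, map_zero, map_one, hff, it53, it60, it63, it69, it70, it71]) <;> linear_combination (0 : K) * h2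
  · (try simp only [map_add, map_mul, map_pow, map_zero, map_one, hff, it53, it60, it63, it69, it70, it71]) <;> linear_combination (l37*y) * h2
  · (try simp only [map_add, map_mul, map_pow, map_zero, map_one, hff, it53, it60, it63, it69, it70, it71]) <;> linear_combination (0 : K) * h2
  · (try simp only [map_add, map_mul, map_pow, map_zero, map_one, hff, it53, it60, it63, it69, it70, it71]) <;> linear_combination (0 : K) * h2
  · (try simp only [map_add, map_mul, map_pow, map_zero, map_one, hff, it53, it60, it63, it69, it70, it71]) <;> linear_combination (0 : K) * h2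
  · (try simp only [map_add, map_mul, map_pow, map_zero, map_one, hff, it53, it60, it63, it69, it70, it71]) <;> linear_combination (0 : K) * h2
  · (try simp only [map_add, map_mul, map_pow, map_zero, map_one, hff, it53, it60, it63, it69, it70, it71]) <;> linear_combination (0 : K) * h2
  · (try simp only [map_add, map_mul, map_pow, map_zero, map_one, hff, it53, it60, it63, it69, it70, it71]) <;> linear_combination (0 : K) * h2
  · (try simp only [map_add, map_mul, map_pow, map_zero, map_one, hff, it53, it60, it63, it69, it70, it71]) <;> linear_combination (0 : K) * h2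
  · (try simp only [map_add, map_mul, map_pow, map_zero, map_one, hff, it53, it60, it63, it69, it70, it71]) <;> linear_combination (0 : K) * h2
  · (try simp only [map_add, map_mul, map_pow, map_zero, map_one, hff, it53, it60, it63, it69, it70, it71]) <;> linear_combination (0 : K) * h2
  · (try simp only [map_add, map_mul, map_pow, map_zero, map_one, hff, it53, it60, it63, it69, it70, it71]) <;> linear_combination (0 : K) * h2
  · (try simp only [map_add, map_mul, map_pow, map_zero, map_one, hff, it53, it60, it63, it69, it70, it71]) <;> linear_combination (0 : K) * h2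
  · (try simp only [map_add, map_mul, map_pow, map_zero, map_one, hff, it53, it60, it63, it69, it70, it71]) <;> linear_combination ((f l37)*(f y)) * h2
  · (try simp only [map_add, map_mul, map_pow, map_zero, map_one, hff, it53, it60, it63, it69, it70, it71]) <;> linear_combination (0 : K) * h2
  · (try simp only [map_add, map_mul, map_pow, map_zero, map_one, hff, it53, it60, it63, it69, it70, it71]) <;> linear_combination (0 : K) * h2
  · (try simp only [map_add, map_mul, map_pow, map_zero, map_one, hff, it53, it60, it63, it69, it70, it71]) <;> linear_combination (0 : K) * h2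
  · (try simp only [map_add, map_mul, map_pow, map_zero, map_one, hff, it53, it60, it63, it69, it70, it71]) <;> linear_combination (0 : K) * h2

theorem st_LC_1_1_1_1_1_1_1_1_1_1_1_1_1_1 {l37 t53 t60 t63 t69 t70 t71 w : K} (hff : ∀ t, f (f t) = t) (it53 : f t53 = t53) (it60 : f t60 = t60) (it63 : f t63 = t63) (it69 : f t69 = t69) (it70 : f t70 = t70) (it71 : f t71 = t71) (iw : f w = w) :
    E f 0 0 0 0 0 0 0 0 0 0 0 0 0 0 0 0 0 0 0 (w) 0 0 0 0 * E f 0 (l37) 0 0 0 0 0 0 0 0 0 0 0 0 (t53) 0 0 (t60) (t63) 0 ((l37) * w) (t69) (t70) (t71) = E f 0 (l37) 0 0 0 0 0 0 0 0 0 0 0 0 (t53) 0 0 (t60) (t63) 0 0 (t69 + l37*w*(f l37)) (t70) (t71) * E f 0 0 0 0 0 0 0 0 0 0 0 0 0 0 0 0 0 0 0 (w) 0 0 0 0 := by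
  have h2 : (2 : K) = 0 := CharTwo.two_eq_zero
  unfold E
  rw [W_mul, W_mul]
  apply W_congr
  · (try simp only [map_add, map_mul, map_pow, map_zero, map_one, hff, it53, it60, it63, it69, it70, it71, iw]) <;> linear_combination (0 : K) * h2
  · (try simp only [map_add, map_mul, map_pow, map_zero, map_one, hff, it53, it60, it63, it69, it70, it71, iw]) <;> linear_combination (0 : K) * h2
  · (try simp only [map_add, map_mul, map_pow, map_zero, map_one, hff, it53, it60, it63, it69, it70, it71, iw]) <;> linear_combination (0 : K) * h2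
  · (try simp only [map_add, map_mul, map_pow, map_zero, map_one, hff, it53, it60, it63, it69, it70, it71, iw]) <;> linear_combination (0 : K) * h2
  · (try simp only [map_add, map_mul, map_pow, map_zero, map_one, hff, it53, it60, it63, it69, it70, it71, iw]) <;> linear_combination (0 : K) * h2
  · (try simp only [map_add, map_mul, map_pow, map_zero, map_one, hff, it53, it60, it63, it69, it70, it71, iw]) <;> linear_combination (0 : K) * h2
  · (try simp only [map_add, map_mul, map_pow, map_zero, map_one, hff, it53, it60, it63, it69, it70, it71, iw]) <;> linear_combination (0 : K) * h2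
  · (try simp only [map_add, map_mul, map_pow, map_zero, map_one, hff, it53, it60, it63, it69, it70, it71, iw]) <;> linear_combination (0 : K) * h2
  · (try simp only [map_add, map_mul, map_pow, map_zero, map_one, hff, it53, it60, it63, it69, it70, it71, iw]) <;> linear_combination (0 : K) * h2
  · (try simp only [map_add, map_mul, map_pow, map_zero, map_one, hff, it53, it60, it63, it69, it70, it71, iw]) <;> linear_combination (0 : K) * h2
  · (try simp only [map_add, map_mul, map_pow, map_zero, map_one, hff, it53, it60, it63, it69, it70, it71, iw]) <;> linear_combination (0 : K) * h2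
  · (try simp only [map_add, map_mul, map_pow, map_zero, map_one, hff, it53, it60, it63, it69, it70, it71, iw]) <;> linear_combination (0 : K) * h2
  · (try simp only [map_add, map_mul, map_pow, map_zero, map_one, hff, it53, it60, it63, it69, it70, it71, iw]) <;> linear_combination (0 : K) * h2
  · (try simp only [map_add, map_mul, map_pow, map_zero, map_one, hff, it53, it60, it63, it69, it70, it71, iw]) <;> linear_combination (0 : K) * h2
  · (try simp only [map_add, map_mul, map_pow, map_zero, map_one, hff, it53, it60, it63, it69, it70, it71, iw]) <;> linear_combination (0 : K) * h2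
  · (try simp only [map_add, map_mul, map_pow, map_zero, map_one, hff, it53, it60, it63, it69, it70, it71, iw]) <;> linear_combination (0 : K) * h2
  · (try simp only [map_add, map_mul, map_pow, map_zero, map_one, hff, it53, it60, it63, it69, it70, it71, iw]) <;> linear_combination (0 : K) * h2
  · (try simp only [map_add, map_mul, map_pow, map_zero, map_one, hff, it53, it60, it63, it69, it70, it71, iw]) <;> linear_combination (0 : K) * h2
  · (try simp only [map_add, map_mul, map_pow, map_zero, map_one, hff, it53, it60, it63, it69, it70, it71, iw]) <;> linear_combination (0 : K) * h2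
  · (try simp only [map_add, map_mul, map_pow, map_zero, map_one, hff, it53, it60, it63, it69, it70, it71, iw]) <;> linear_combination (0 : K) * h2
  · (try simp only [map_add, map_mul, map_pow, map_zero, map_one, hff, it53, it60, it63, it69, it70, it71, iw]) <;> linear_combination (0 : K) * h2
  · (try simp only [map_add, map_mul, map_pow, map_zero, map_one, hff, it53, it60, it63, it69, it70, it71, iw]) <;> linear_combination (0 : K) * h2
  · (try simp only [map_add, map_mul, map_pow, map_zero, map_one, hff, it53, it60, it63, it69, it70, it71, iw]) <;> linear_combination (0 : K) * h2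
  · (try simp only [map_add, map_mul, map_pow, map_zero, map_one, hff, it53, it60, it63, it69, it70, it71, iw]) <;> linear_combination (0 : K) * h2
  · (try simp only [map_add, map_mul, map_pow, map_zero, map_one, hff, it53, it60, it63, it69, it70, it71, iw]) <;> linear_combination (0 : K) * h2
  · (try simp only [map_add, map_mul, map_pow, map_zero, map_one, hff, it53, it60, it63, it69, it70, it71, iw]) <;> linear_combination (0 : K) * h2
  · (try simp only [map_add, map_mul, map_pow, map_zero, map_one, hff, it53, it60, it63, it69, it70, it71, iw]) <;> linear_combination (0 : K) * h2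
  · (try simp only [map_add, map_mul, map_pow, map_zero, map_one, hff, it53, it60, it63, it69, it70, it71, iw]) <;> linear_combination (0 : K) * h2
  · (try simp only [map_add, map_mul, map_pow, map_zero, map_one, hff, it53, it60, it63, it69, it70, it71, iw]) <;> linear_combination (0 : K) * h2
  · (try simp only [map_add, map_mul, map_pow, map_zero, map_one, hff, it53, it60, it63, it69, it70, it71, iw]) <;> linear_combination (0 : K) * h2
  · (try simp only [map_add, map_mul, map_pow, map_zero, map_one, hff, it53, it60, it63, it69, it70, it71, iw]) <;> linear_combination (l37*w) * h2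
  · (try simp only [map_add, map_mul, map_pow, map_zero, map_one, hff, it53, it60, it63, it69, it70, it71, iw]) <;> linear_combination (0 : K) * h2
  · (try simp only [map_add, map_mul, map_pow, map_zero, map_one, hff, it53, it60, it63, it69, it70, it71, iw]) <;> linear_combination (w*(f l37)) * h2
  · (try simp only [map_add, map_mul, map_pow, map_zero, map_one, hff, it53, it60, it63, it69, it70, it71, iw]) <;> linear_combination (0 : K) * h2
  · (try simp only [map_add, map_mul, map_pow, map_zero, map_one, hff, it53, it60, it63, it69, it70, it71, iw]) <;> linear_combination (0 : K) * h2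
  · (try simp only [map_add, map_mul, map_pow, map_zero, map_one, hff, it53, it60, it63, it69, it70, it71, iw]) <;> linear_combination (0 : K) * h2

theorem st_LC_1_1_1_1_1_1_1_1_1_1_1_1_1_1_1 {l37 t53 t60 t63 t70 t71 y : K} (hff : ∀ t, f (f t) = t) (it53 : f t53 = t53) (it60 : f t60 = t60) (it63 : f t63 = t63) (it70 : f t70 = t70) (it71 : f t71 = t71) :
    E f 0 0 0 0 0 0 0 0 0 0 0 0 0 0 0 0 0 0 0 0 (y) 0 0 0 * E f 0 (l37) 0 0 0 0 0 0 0 0 0 0 0 0 (t53) 0 0 (t60) (t63) 0 0 ((l37) * f y + f (l37) * y) (t70) (t71) = E f 0 (l37) 0 0 0 0 0 0 0 0 0 0 0 0 (t53) 0 0 (t60) (t63) 0 0 0 (t70) (t71) * E f 0 0 0 0 0 0 0 0 0 0 0 0 0 0 0 0 0 0 0 0 (y) 0 0 0 := by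
  have h2 : (2 : K) = 0 := CharTwo.two_eq_zero
  unfold E
  rw [W_mul, W_mul]
  apply W_congr
  · (try simp only [map_add, map_mul, map_pow, map_zero, map_one, hff, it53, it60, it63, it70, it71]) <;> linear_combination (0 : K) * h2
  · (try simp only [map_add, map_mul, map_pow, map_zero, map_one, hff, it53, it60, it63, it70, it71]) <;> linear_combination (0 : K) * h2
  · (try simp only [map_add, map_mul, map_pow, map_zero, map_one, hff, it53, it60, it63, it70, it71]) <;> linear_combination (0 : K) * h2
  · (try simp only [map_add, map_mul, map_pow, map_zero, map_one, hff, it53, it60, it63, it70, it71]) <;> linear_combination (0 : K) * h2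
  · (try simp only [map_add, map_mul, map_pow, map_zero, map_one, hff, it53, it60, it63, it70, it71]) <;> linear_combination (0 : K) * h2
  · (try simp only [map_add, map_mul, map_pow, map_zero, map_one, hff, it53, it60, it63, it70, it71]) <;> linear_combination (0 : K) * h2
  · (try simp only [map_add, map_mul, map_pow, map_zero, map_one, hff, it53, it60, it63, it70, it71]) <;> linear_combination (0 : K) * h2
  · (try simp only [map_add, map_mul, map_pow, map_zero, map_one, hff, it53, it60, it63, it70, it71]) <;> linear_combination (0 : K) * h2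
  · (try simp only [map_add, map_mul, map_pow, map_zero, map_one, hff, it53, it60, it63, it70, it71]) <;> linear_combination (0 : K) * h2
  · (try simp only [map_add, map_mul, map_pow, map_zero, map_one, hff, it53, it60, it63, it70, it71]) <;> linear_combination (0 : K) * h2
  · (try simp only [map_add, map_mul, map_pow, map_zero, map_one, hff, it53, it60, it63, it70, it71]) <;> linear_combination (0 : K) * h2
  · (try simp only [map_add, map_mul, map_pow, map_zero, map_one, hff, it53, it60, it63, it70, it71]) <;> linear_combination (0 : K) * h2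
  · (try simp only [map_add, map_mul, map_pow, map_zero, map_one, hff, it53, it60, it63, it70, it71]) <;> linear_combination (0 : K) * h2
  · (try simp only [map_add, map_mul, map_pow, map_zero, map_one, hff, it53, it60, it63, it70, it71]) <;> linear_combination (0 : K) * h2
  · (try simp only [map_add, map_mul, map_pow, map_zero, map_one, hff, it53, it60, it63, it70, it71]) <;> linear_combination (0 : K) * h2
  · (try simp only [map_add, map_mul, map_pow, map_zero, map_one, hff, it53, it60, it63, it70, it71]) <;> linear_combination (0 : K) * h2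
  · (try simp only [map_add, map_mul, map_pow, map_zero, map_one, hff, it53, it60, it63, it70, it71]) <;> linear_combination (0 : K) * h2
  · (try simp only [map_add, map_mul, map_pow, map_zero, map_one, hff, it53, it60, it63, it70, it71]) <;> linear_combination (0 : K) * h2
  · (try simp only [map_add, map_mul, map_pow, map_zero, map_one, hff, it53, it60, it63, it70, it71]) <;> linear_combination (0 : K) * h2
  · (try simp only [map_add, map_mul, map_pow, map_zero, map_one, hff, it53, it60, it63, it70, it71]) <;> linear_combination (0 : K) * h2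
  · (try simp only [map_add, map_mul, map_pow, map_zero, map_one, hff, it53, it60, it63, it70, it71]) <;> linear_combination (0 : K) * h2
  · (try simp only [map_add, map_mul, map_pow, map_zero, map_one, hff, it53, it60, it63, it70, it71]) <;> linear_combination (0 : K) * h2
  · (try simp only [map_add, map_mul, map_pow, map_zero, map_one, hff, it53, it60, it63, it70, it71]) <;> linear_combination (0 : K) * h2
  · (try simp only [map_add, map_mul, map_pow, map_zero, map_one, hff, it53, it60, it63, it70, it71]) <;> linear_combination (0 : K) * h2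
  · (try simp only [map_add, map_mul, map_pow, map_zero, map_one, hff, it53, it60, it63, it70, it71]) <;> linear_combination (0 : K) * h2
  · (try simp only [map_add, map_mul, map_pow, map_zero, map_one, hff, it53, it60, it63, it70, it71]) <;> linear_combination (0 : K) * h2
  · (try simp only [map_add, map_mul, map_pow, map_zero, map_one, hff, it53, it60, it63, it70, it71]) <;> linear_combination (0 : K) * h2
  · (try simp only [map_add, map_mul, map_pow, map_zero, map_one, hff, it53, it60, it63, it70, it71]) <;> linear_combination (0 : K) * h2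
  · (try simp only [map_add, map_mul, map_pow, map_zero, map_one, hff, it53, it60, it63, it70, it71]) <;> linear_combination (0 : K) * h2
  · (try simp only [map_add, map_mul, map_pow, map_zero, map_one, hff, it53, it60, it63, it70, it71]) <;> linear_combination (0 : K) * h2
  · (try simp only [map_add, map_mul, map_pow, map_zero, map_one, hff, it53, it60, it63, it70, it71]) <;> linear_combination (0 : K) * h2
  · (try simp only [map_add, map_mul, map_pow, map_zero, map_one, hff, it53, it60, it63, it70, it71]) <;> linear_combination (0 : K) * h2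
  · (try simp only [map_add, map_mul, map_pow, map_zero, map_one, hff, it53, it60, it63, it70, it71]) <;> linear_combination (0 : K) * h2
  · (try simp only [map_add, map_mul, map_pow, map_zero, map_one, hff, it53, it60, it63, it70, it71]) <;> linear_combination (l37*(f y) + y*(f l37)) * h2
  · (try simp only [map_add, map_mul, map_pow, map_zero, map_one, hff, it53, it60, it63, it70, it71]) <;> linear_combination (0 : K) * h2
  · (try simp only [map_add, map_mul, map_pow, map_zero, map_one, hff, it53, it60, it63, it70, it71]) <;> linear_combination (0 : K) * h2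

theorem U4_1_1_1_1_1 {l37 : K} (d : Dt f) (hp37 : l37 ≠ 0) (hm : E f 0 (l37) 0 0 0 0 0 0 0 0 0 0 0 0 0 0 0 0 0 0 0 0 0 0 ∈ (sc f).G1) (hs : E f 0 (l37) 0 0 0 0 0 0 0 0 0 0 0 0 0 0 0 0 0 0 0 0 0 0 * E f 0 (l37) 0 0 0 0 0 0 0 0 0 0 0 0 0 0 0 0 0 0 0 0 0 0 = 1) : Res f (E f 0 (l37) 0 0 0 0 0 0 0 0 0 0 0 0 0 0 0 0 0 0 0 0 0 0) := by
  exact P37 d hp37 hm hs

theorem U4_1_1_1_1_2 {l37 t71 : K} (d : Dt f) (hp37 : l37 ≠ 0) (hp71 : t71 ≠ 0) (hm : E f 0 (l37) 0 0 0 0 0 0 0 0 0 0 0 0 0 0 0 0 0 0 0 0 0 (t71) ∈ (sc f).G1) (hs : E f 0 (l37) 0 0 0 0 0 0 0 0 0 0 0 0 0 0 0 0 0 0 0 0 0 (t71) * E f 0 (l37) 0 0 0 0 0 0 0 0 0 0 0 0 0 0 0 0 0 0 0 0 0 (t71) = 1) : Res f (E f 0 (l37) 0 0 0 0 0 0 0 0 0 0 0 0 0 0 0 0 0 0 0 0 0 (t71)) := by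
  exact F1 d hp71 hm hs

theorem U4_1_1_1_1 {l37 t71 : K} (d : Dt f) (hp37 : l37 ≠ 0) (hm : E f 0 (l37) 0 0 0 0 0 0 0 0 0 0 0 0 0 0 0 0 0 0 0 0 0 (t71) ∈ (sc f).G1) (hs : E f 0 (l37) 0 0 0 0 0 0 0 0 0 0 0 0 0 0 0 0 0 0 0 0 0 (t71) * E f 0 (l37) 0 0 0 0 0 0 0 0 0 0 0 0 0 0 0 0 0 0 0 0 0 (t71) = 1) : Res f (E f 0 (l37) 0 0 0 0 0 0 0 0 0 0 0 0 0 0 0 0 0 0 0 0 0 (t71)) := by
  by_cases hz : t71 = 0
  · subst hz
    exact U4_1_1_1_1_1 d hp37 hm hs
  · exact U4_1_1_1_1_2 d hp37 hz hm hs

theorem nE_U4_1_1_1_2 {l37 t70 t71 : K} (hff : ∀ t, f (f t) = t) (it70 : f t70 = t70) (it71 : f t71 = t71) :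
    nR [1, 2, 3, 1, 2, 1] * E f 0 (l37) 0 0 0 0 0 0 0 0 0 0 0 0 0 0 0 0 0 0 0 0 (t70) (t71) * (nR [1, 2, 3, 1, 2, 1])⁻¹ = E f ((f l37)) 0 0 0 0 0 0 0 (t70) 0 0 0 0 0 0 0 0 0 0 0 0 0 0 (t71) := by
  have h2 : (2 : K) = 0 := CharTwo.two_eq_zero
  have c37 := fun t : K => nR_at (l := [1, 2, 3, 1, 2, 1]) (s := 37) (m := 56) (by decide +kernel) t
  have c42 := fun t : K => nR_at (l := [1, 2, 3, 1, 2, 1]) (s := 42) (m := 36) (by decide +kernel) t
  have c70 := fun t : K => nR_at (l := [1, 2, 3, 1, 2, 1]) (s := 70) (m := 46) (by decide +kernel) t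
  have c71 := fun t : K => nR_at (l := [1, 2, 3, 1, 2, 1]) (s := 71) (m := 71) (by decide +kernel) t
  unfold E
  rw [conj_W]
  simp only [map_zero, zero_mul, mul_zero, add_zero, zero_add, conj_x0, one_mul, c37, c42, c70, c71]
  rw [← W_zero (K := K)]
  simp only [xW_36, xW_46, xW_56, xW_71, zero_mul, mul_zero, add_zero, zero_add]
  first
    | done
    | apply W_congr
      · (try simp only [map_add, map_mul, map_pow, map_zero, map_one, hff, it70, it71]) <;> linear_combination (0 : K) * h2
      · (try simp only [map_add, map_mul, map_pow, map_zero, map_one, hff, it70, it71]) <;> linear_combination (0 : K) * h2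
      · (try simp only [map_add, map_mul, map_pow, map_zero, map_one, hff, it70, it71]) <;> linear_combination (0 : K) * h2
      · (try simp only [map_add, map_mul, map_pow, map_zero, map_one, hff, it70, it71]) <;> linear_combination (0 : K) * h2
      · (try simp only [map_add, map_mul, map_pow, map_zero, map_one, hff, it70, it71]) <;> linear_combination (0 : K) * h2
      · (try simp only [map_add, map_mul, map_pow, map_zero, map_one, hff, it70, it71]) <;> linear_combination (0 : K) * h2
      · (try simp only [map_add, map_mul, map_pow, map_zero, map_one, hff, it70, it71]) <;> linear_combination (0 : K) * h2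
      · (try simp only [map_add, map_mul, map_pow, map_zero, map_one, hff, it70, it71]) <;> linear_combination (0 : K) * h2
      · (try simp only [map_add, map_mul, map_pow, map_zero, map_one, hff, it70, it71]) <;> linear_combination (0 : K) * h2
      · (try simp only [map_add, map_mul, map_pow, map_zero, map_one, hff, it70, it71]) <;> linear_combination (0 : K) * h2
      · (try simp only [map_add, map_mul, map_pow, map_zero, map_one, hff, it70, it71]) <;> linear_combination (0 : K) * h2
      · (try simp only [map_add, map_mul, map_pow, map_zero, map_one, hff, it70, it71]) <;> linear_combination (0 : K) * h2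
      · (try simp only [map_add, map_mul, map_pow, map_zero, map_one, hff, it70, it71]) <;> linear_combination (0 : K) * h2
      · (try simp only [map_add, map_mul, map_pow, map_zero, map_one, hff, it70, it71]) <;> linear_combination (0 : K) * h2
      · (try simp only [map_add, map_mul, map_pow, map_zero, map_one, hff, it70, it71]) <;> linear_combination (0 : K) * h2
      · (try simp only [map_add, map_mul, map_pow, map_zero, map_one, hff, it70, it71]) <;> linear_combination (0 : K) * h2
      · (try simp only [map_add, map_mul, map_pow, map_zero, map_one, hff, it70, it71]) <;> linear_combination (0 : K) * h2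
      · (try simp only [map_add, map_mul, map_pow, map_zero, map_one, hff, it70, it71]) <;> linear_combination (0 : K) * h2
      · (try simp only [map_add, map_mul, map_pow, map_zero, map_one, hff, it70, it71]) <;> linear_combination (0 : K) * h2
      · (try simp only [map_add, map_mul, map_pow, map_zero, map_one, hff, it70, it71]) <;> linear_combination (0 : K) * h2
      · (try simp only [map_add, map_mul, map_pow, map_zero, map_one, hff, it70, it71]) <;> linear_combination (0 : K) * h2
      · (try simp only [map_add, map_mul, map_pow, map_zero, map_one, hff, it70, it71]) <;> linear_combination (0 : K) * h2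
      · (try simp only [map_add, map_mul, map_pow, map_zero, map_one, hff, it70, it71]) <;> linear_combination (0 : K) * h2
      · (try simp only [map_add, map_mul, map_pow, map_zero, map_one, hff, it70, it71]) <;> linear_combination (0 : K) * h2
      · (try simp only [map_add, map_mul, map_pow, map_zero, map_one, hff, it70, it71]) <;> linear_combination (0 : K) * h2
      · (try simp only [map_add, map_mul, map_pow, map_zero, map_one, hff, it70, it71]) <;> linear_combination (0 : K) * h2
      · (try simp only [map_add, map_mul, map_pow, map_zero, map_one, hff, it70, it71]) <;> linear_combination (0 : K) * h2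
      · (try simp only [map_add, map_mul, map_pow, map_zero, map_one, hff, it70, it71]) <;> linear_combination (0 : K) * h2
      · (try simp only [map_add, map_mul, map_pow, map_zero, map_one, hff, it70, it71]) <;> linear_combination (0 : K) * h2
      · (try simp only [map_add, map_mul, map_pow, map_zero, map_one, hff, it70, it71]) <;> linear_combination (0 : K) * h2
      · (try simp only [map_add, map_mul, map_pow, map_zero, map_one, hff, it70, it71]) <;> linear_combination (0 : K) * h2
      · (try simp only [map_add, map_mul, map_pow, map_zero, map_one, hff, it70, it71]) <;> linear_combination (0 : K) * h2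
      · (try simp only [map_add, map_mul, map_pow, map_zero, map_one, hff, it70, it71]) <;> linear_combination (0 : K) * h2
      · (try simp only [map_add, map_mul, map_pow, map_zero, map_one, hff, it70, it71]) <;> linear_combination (0 : K) * h2
      · (try simp only [map_add, map_mul, map_pow, map_zero, map_one, hff, it70, it71]) <;> linear_combination (0 : K) * h2
      · (try simp only [map_add, map_mul, map_pow, map_zero, map_one, hff, it70, it71]) <;> linear_combination (0 : K) * h2

theorem U4_1_1_1_2_1 {l36 t46 t71 : K} (d : Dt f) (hp46 : t46 ≠ 0) (hm : E f (l36) 0 0 0 0 0 0 0 (t46) 0 0 0 0 0 0 0 0 0 0 0 0 0 0 (t71) ∈ (sc f).G1) (hs : E f (l36) 0 0 0 0 0 0 0 (t46) 0 0 0 0 0 0 0 0 0 0 0 0 0 0 (t71) * E f (l36) 0 0 0 0 0 0 0 (t46) 0 0 0 0 0 0 0 0 0 0 0 0 0 0 (t71) = 1) : Res f (E f (l36) 0 0 0 0 0 0 0 (t46) 0 0 0 0 0 0 0 0 0 0 0 0 0 0 (t71)) := by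
  exact LA d hp46 hm hs

theorem U4_1_1_1_2 {l37 t70 t71 : K} (d : Dt f) (hp37 : l37 ≠ 0) (hp70 : t70 ≠ 0) (hm : E f 0 (l37) 0 0 0 0 0 0 0 0 0 0 0 0 0 0 0 0 0 0 0 0 (t70) (t71) ∈ (sc f).G1) (hs : E f 0 (l37) 0 0 0 0 0 0 0 0 0 0 0 0 0 0 0 0 0 0 0 0 (t70) (t71) * E f 0 (l37) 0 0 0 0 0 0 0 0 0 0 0 0 0 0 0 0 0 0 0 0 (t70) (t71) = 1) : Res f (E f 0 (l37) 0 0 0 0 0 0 0 0 0 0 0 0 0 0 0 0 0 0 0 0 (t70) (t71)) := by
  obtain ⟨it39, it44, it46, it47, it51, it53, it60, it63, it65, it69, it70, it71⟩ := inv_of_mem d hm
  have c : Cj f (E f 0 (l37) 0 0 0 0 0 0 0 0 0 0 0 0 0 0 0 0 0 0 0 0 (t70) (t71)) (E f ((f l37)) 0 0 0 0 0 0 0 (t70) 0 0 0 0 0 0 0 0 0 0 0 0 0 0 (t71)) := cjN f (nR_mem f [1, 2, 3, 1, 2, 1]) (nE_U4_1_1_1_2 d.hff it70 it71)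
  exact Res.of_cj f c (U4_1_1_1_2_1 d hp70 (c.mem f hm) (c.sq f hs))

theorem U4_1_1_1 {l37 t70 t71 : K} (d : Dt f) (hp37 : l37 ≠ 0) (hm : E f 0 (l37) 0 0 0 0 0 0 0 0 0 0 0 0 0 0 0 0 0 0 0 0 (t70) (t71) ∈ (sc f).G1) (hs : E f 0 (l37) 0 0 0 0 0 0 0 0 0 0 0 0 0 0 0 0 0 0 0 0 (t70) (t71) * E f 0 (l37) 0 0 0 0 0 0 0 0 0 0 0 0 0 0 0 0 0 0 0 0 (t70) (t71) = 1) : Res f (E f 0 (l37) 0 0 0 0 0 0 0 0 0 0 0 0 0 0 0 0 0 0 0 0 (t70) (t71)) := by
  by_cases hz : t70 = 0
  · subst hz
    exact U4_1_1_1_1 d hp37 hm hs
  · exact U4_1_1_1_2 d hp37 hz hm hs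

theorem st_U4_1_1_2 {l37 t53 t71 w : K} (hff : ∀ t, f (f t) = t) (it53 : f t53 = t53) (it71 : f t71 = t71) (iw : f w = w) :
    E f 0 0 0 0 0 0 0 0 0 0 0 0 0 0 0 0 0 (w) 0 0 0 0 0 0 * E f 0 (l37) 0 0 0 0 0 0 0 0 0 0 0 0 (t53) 0 0 0 0 0 0 0 ((t53) * w) (t71) = E f 0 (l37) 0 0 0 0 0 0 0 0 0 0 0 0 (t53) 0 0 0 0 0 0 0 0 (t71) * E f 0 0 0 0 0 0 0 0 0 0 0 0 0 0 0 0 0 (w) 0 0 0 0 0 0 := by
  have h2 : (2 : K) = 0 := CharTwo.two_eq_zero
  unfold E
  rw [W_mul, W_mul]
  apply W_congr
  · (try simp only [map_add, map_mul, map_pow, map_zero, map_one, hff, it53, it71, iw]) <;> linear_combination (0 : K) * h2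
  · (try simp only [map_add, map_mul, map_pow, map_zero, map_one, hff, it53, it71, iw]) <;> linear_combination (0 : K) * h2
  · (try simp only [map_add, map_mul, map_pow, map_zero, map_one, hff, it53, it71, iw]) <;> linear_combination (0 : K) * h2
  · (try simp only [map_add, map_mul, map_pow, map_zero, map_one, hff, it53, it71, iw]) <;> linear_combination (0 : K) * h2
  · (try simp only [map_add, map_mul, map_pow, map_zero, map_one, hff, it53, it71, iw]) <;> linear_combination (0 : K) * h2
  · (try simp only [map_add, map_mul, map_pow, map_zero, map_one, hff, it53, it71, iw]) <;> linear_combination (0 : K) * h2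
  · (try simp only [map_add, map_mul, map_pow, map_zero, map_one, hff, it53, it71, iw]) <;> linear_combination (0 : K) * h2
  · (try simp only [map_add, map_mul, map_pow, map_zero, map_one, hff, it53, it71, iw]) <;> linear_combination (0 : K) * h2
  · (try simp only [map_add, map_mul, map_pow, map_zero, map_one, hff, it53, it71, iw]) <;> linear_combination (0 : K) * h2
  · (try simp only [map_add, map_mul, map_pow, map_zero, map_one, hff, it53, it71, iw]) <;> linear_combination (0 : K) * h2
  · (try simp only [map_add, map_mul, map_pow, map_zero, map_one, hff, it53, it71, iw]) <;> linear_combination (0 : K) * h2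
  · (try simp only [map_add, map_mul, map_pow, map_zero, map_one, hff, it53, it71, iw]) <;> linear_combination (0 : K) * h2
  · (try simp only [map_add, map_mul, map_pow, map_zero, map_one, hff, it53, it71, iw]) <;> linear_combination (0 : K) * h2
  · (try simp only [map_add, map_mul, map_pow, map_zero, map_one, hff, it53, it71, iw]) <;> linear_combination (0 : K) * h2
  · (try simp only [map_add, map_mul, map_pow, map_zero, map_one, hff, it53, it71, iw]) <;> linear_combination (0 : K) * h2
  · (try simp only [map_add, map_mul, map_pow, map_zero, map_one, hff, it53, it71, iw]) <;> linear_combination (0 : K) * h2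
  · (try simp only [map_add, map_mul, map_pow, map_zero, map_one, hff, it53, it71, iw]) <;> linear_combination (0 : K) * h2
  · (try simp only [map_add, map_mul, map_pow, map_zero, map_one, hff, it53, it71, iw]) <;> linear_combination (0 : K) * h2
  · (try simp only [map_add, map_mul, map_pow, map_zero, map_one, hff, it53, it71, iw]) <;> linear_combination (0 : K) * h2
  · (try simp only [map_add, map_mul, map_pow, map_zero, map_one, hff, it53, it71, iw]) <;> linear_combination (0 : K) * h2
  · (try simp only [map_add, map_mul, map_pow, map_zero, map_one, hff, it53, it71, iw]) <;> linear_combination (0 : K) * h2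
  · (try simp only [map_add, map_mul, map_pow, map_zero, map_one, hff, it53, it71, iw]) <;> linear_combination (0 : K) * h2
  · (try simp only [map_add, map_mul, map_pow, map_zero, map_one, hff, it53, it71, iw]) <;> linear_combination (0 : K) * h2
  · (try simp only [map_add, map_mul, map_pow, map_zero, map_one, hff, it53, it71, iw]) <;> linear_combination (0 : K) * h2
  · (try simp only [map_add, map_mul, map_pow, map_zero, map_one, hff, it53, it71, iw]) <;> linear_combination (0 : K) * h2
  · (try simp only [map_add, map_mul, map_pow, map_zero, map_one, hff, it53, it71, iw]) <;> linear_combination (0 : K) * h2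
  · (try simp only [map_add, map_mul, map_pow, map_zero, map_one, hff, it53, it71, iw]) <;> linear_combination (0 : K) * h2
  · (try simp only [map_add, map_mul, map_pow, map_zero, map_one, hff, it53, it71, iw]) <;> linear_combination (0 : K) * h2
  · (try simp only [map_add, map_mul, map_pow, map_zero, map_one, hff, it53, it71, iw]) <;> linear_combination (0 : K) * h2
  · (try simp only [map_add, map_mul, map_pow, map_zero, map_one, hff, it53, it71, iw]) <;> linear_combination (0 : K) * h2
  · (try simp only [map_add, map_mul, map_pow, map_zero, map_one, hff, it53, it71, iw]) <;> linear_combination (0 : K) * h2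
  · (try simp only [map_add, map_mul, map_pow, map_zero, map_one, hff, it53, it71, iw]) <;> linear_combination (0 : K) * h2
  · (try simp only [map_add, map_mul, map_pow, map_zero, map_one, hff, it53, it71, iw]) <;> linear_combination (0 : K) * h2
  · (try simp only [map_add, map_mul, map_pow, map_zero, map_one, hff, it53, it71, iw]) <;> linear_combination (0 : K) * h2
  · (try simp only [map_add, map_mul, map_pow, map_zero, map_one, hff, it53, it71, iw]) <;> linear_combination (t53*w) * h2
  · (try simp only [map_add, map_mul, map_pow, map_zero, map_one, hff, it53, it71, iw]) <;> linear_combination (0 : K) * h2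

theorem st_U4_1_1_2_1 {l37 t53 w : K} (hff : ∀ t, f (f t) = t) (it53 : f t53 = t53) (iw : f w = w) :
    E f 0 0 0 0 0 0 0 0 0 0 0 0 0 0 0 0 0 0 (w) 0 0 0 0 0 * E f 0 (l37) 0 0 0 0 0 0 0 0 0 0 0 0 (t53) 0 0 0 0 0 0 0 0 ((t53) * w) = E f 0 (l37) 0 0 0 0 0 0 0 0 0 0 0 0 (t53) 0 0 0 0 0 0 0 0 0 * E f 0 0 0 0 0 0 0 0 0 0 0 0 0 0 0 0 0 0 (w) 0 0 0 0 0 := by
  have h2 : (2 : K) = 0 := CharTwo.two_eq_zero
  unfold E
  rw [W_mul, W_mul]
  apply W_congr
  · (try simp only [map_add, map_mul, map_pow, map_zero, map_one, hff, it53, iw]) <;> linear_combination (0 : K) * h2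
  · (try simp only [map_add, map_mul, map_pow, map_zero, map_one, hff, it53, iw]) <;> linear_combination (0 : K) * h2
  · (try simp only [map_add, map_mul, map_pow, map_zero, map_one, hff, it53, iw]) <;> linear_combination (0 : K) * h2
  · (try simp only [map_add, map_mul, map_pow, map_zero, map_one, hff, it53, iw]) <;> linear_combination (0 : K) * h2
  · (try simp only [map_add, map_mul, map_pow, map_zero, map_one, hff, it53, iw]) <;> linear_combination (0 : K) * h2
  · (try simp only [map_add, map_mul, map_pow, map_zero, map_one, hff, it53, iw]) <;> linear_combination (0 : K) * h2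
  · (try simp only [map_add, map_mul, map_pow, map_zero, map_one, hff, it53, iw]) <;> linear_combination (0 : K) * h2
  · (try simp only [map_add, map_mul, map_pow, map_zero, map_one, hff, it53, iw]) <;> linear_combination (0 : K) * h2
  · (try simp only [map_add, map_mul, map_pow, map_zero, map_one, hff, it53, iw]) <;> linear_combination (0 : K) * h2
  · (try simp only [map_add, map_mul, map_pow, map_zero, map_one, hff, it53, iw]) <;> linear_combination (0 : K) * h2
  · (try simp only [map_add, map_mul, map_pow, map_zero, map_one, hff, it53, iw]) <;> linear_combination (0 : K) * h2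
  · (try simp only [map_add, map_mul, map_pow, map_zero, map_one, hff, it53, iw]) <;> linear_combination (0 : K) * h2
  · (try simp only [map_add, map_mul, map_pow, map_zero, map_one, hff, it53, iw]) <;> linear_combination (0 : K) * h2
  · (try simp only [map_add, map_mul, map_pow, map_zero, map_one, hff, it53, iw]) <;> linear_combination (0 : K) * h2
  · (try simp only [map_add, map_mul, map_pow, map_zero, map_one, hff, it53, iw]) <;> linear_combination (0 : K) * h2
  · (try simp only [map_add, map_mul, map_pow, map_zero, map_one, hff, it53, iw]) <;> linear_combination (0 : K) * h2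
  · (try simp only [map_add, map_mul, map_pow, map_zero, map_one, hff, it53, iw]) <;> linear_combination (0 : K) * h2
  · (try simp only [map_add, map_mul, map_pow, map_zero, map_one, hff, it53, iw]) <;> linear_combination (0 : K) * h2
  · (try simp only [map_add, map_mul, map_pow, map_zero, map_one, hff, it53, iw]) <;> linear_combination (0 : K) * h2
  · (try simp only [map_add, map_mul, map_pow, map_zero, map_one, hff, it53, iw]) <;> linear_combination (0 : K) * h2
  · (try simp only [map_add, map_mul, map_pow, map_zero, map_one, hff, it53, iw]) <;> linear_combination (0 : K) * h2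
  · (try simp only [map_add, map_mul, map_pow, map_zero, map_one, hff, it53, iw]) <;> linear_combination (0 : K) * h2
  · (try simp only [map_add, map_mul, map_pow, map_zero, map_one, hff, it53, iw]) <;> linear_combination (0 : K) * h2
  · (try simp only [map_add, map_mul, map_pow, map_zero, map_one, hff, it53, iw]) <;> linear_combination (0 : K) * h2
  · (try simp only [map_add, map_mul, map_pow, map_zero, map_one, hff, it53, iw]) <;> linear_combination (0 : K) * h2
  · (try simp only [map_add, map_mul, map_pow, map_zero, map_one, hff, it53, iw]) <;> linear_combination (0 : K) * h2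
  · (try simp only [map_add, map_mul, map_pow, map_zero, map_one, hff, it53, iw]) <;> linear_combination (0 : K) * h2
  · (try simp only [map_add, map_mul, map_pow, map_zero, map_one, hff, it53, iw]) <;> linear_combination (0 : K) * h2
  · (try simp only [map_add, map_mul, map_pow, map_zero, map_one, hff, it53, iw]) <;> linear_combination (0 : K) * h2
  · (try simp only [map_add, map_mul, map_pow, map_zero, map_one, hff, it53, iw]) <;> linear_combination (0 : K) * h2
  · (try simp only [map_add, map_mul, map_pow, map_zero, map_one, hff, it53, iw]) <;> linear_combination (0 : K) * h2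
  · (try simp only [map_add, map_mul, map_pow, map_zero, map_one, hff, it53, iw]) <;> linear_combination (0 : K) * h2
  · (try simp only [map_add, map_mul, map_pow, map_zero, map_one, hff, it53, iw]) <;> linear_combination (0 : K) * h2
  · (try simp only [map_add, map_mul, map_pow, map_zero, map_one, hff, it53, iw]) <;> linear_combination (0 : K) * h2
  · (try simp only [map_add, map_mul, map_pow, map_zero, map_one, hff, it53, iw]) <;> linear_combination (0 : K) * h2
  · (try simp only [map_add, map_mul, map_pow, map_zero, map_one, hff, it53, iw]) <;> linear_combination (t53*w) * h2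

theorem nE_U4_1_1_2_1_1 {l37 t53 : K} (hff : ∀ t, f (f t) = t) (it53 : f t53 = t53) :
    nR [1, 2, 1] * E f 0 (l37) 0 0 0 0 0 0 0 0 0 0 0 0 (t53) 0 0 0 0 0 0 0 0 0 * (nR [1, 2, 1])⁻¹ = E f 0 ((f l37)) 0 0 0 0 0 0 (t53) 0 0 0 0 0 0 0 0 0 0 0 0 0 0 0 := by
  have h2 : (2 : K) = 0 := CharTwo.two_eq_zero
  have c37 := fun t : K => nR_at (l := [1, 2, 1]) (s := 37) (m := 42) (by decide +kernel) t
  have c42 := fun t : K => nR_at (l := [1, 2, 1]) (s := 42) (m := 37) (by decide +kernel) t
  have c53 := fun t : K => nR_at (l := [1, 2, 1]) (s := 53) (m := 46) (by decide +kernel) t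
  unfold E
  rw [conj_W]
  simp only [map_zero, zero_mul, mul_zero, add_zero, zero_add, conj_x0, one_mul, c37, c42, c53]
  rw [← W_zero (K := K)]
  simp only [xW_37, xW_42, xW_46, zero_mul, mul_zero, add_zero, zero_add]
  first
    | done
    | apply W_congr
      · (try simp only [map_add, map_mul, map_pow, map_zero, map_one, hff, it53]) <;> linear_combination (0 : K) * h2
      · (try simp only [map_add, map_mul, map_pow, map_zero, map_one, hff, it53]) <;> linear_combination (0 : K) * h2
      · (try simp only [map_add, map_mul, map_pow, map_zero, map_one, hff, it53]) <;> linear_combination (0 : K) * h2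
      · (try simp only [map_add, map_mul, map_pow, map_zero, map_one, hff, it53]) <;> linear_combination (0 : K) * h2
      · (try simp only [map_add, map_mul, map_pow, map_zero, map_one, hff, it53]) <;> linear_combination (0 : K) * h2
      · (try simp only [map_add, map_mul, map_pow, map_zero, map_one, hff, it53]) <;> linear_combination (0 : K) * h2
      · (try simp only [map_add, map_mul, map_pow, map_zero, map_one, hff, it53]) <;> linear_combination (0 : K) * h2
      · (try simp only [map_add, map_mul, map_pow, map_zero, map_one, hff, it53]) <;> linear_combination (0 : K) * h2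
      · (try simp only [map_add, map_mul, map_pow, map_zero, map_one, hff, it53]) <;> linear_combination (0 : K) * h2
      · (try simp only [map_add, map_mul, map_pow, map_zero, map_one, hff, it53]) <;> linear_combination (0 : K) * h2
      · (try simp only [map_add, map_mul, map_pow, map_zero, map_one, hff, it53]) <;> linear_combination (0 : K) * h2
      · (try simp only [map_add, map_mul, map_pow, map_zero, map_one, hff, it53]) <;> linear_combination (0 : K) * h2
      · (try simp only [map_add, map_mul, map_pow, map_zero, map_one, hff, it53]) <;> linear_combination (0 : K) * h2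
      · (try simp only [map_add, map_mul, map_pow, map_zero, map_one, hff, it53]) <;> linear_combination (0 : K) * h2
      · (try simp only [map_add, map_mul, map_pow, map_zero, map_one, hff, it53]) <;> linear_combination (0 : K) * h2
      · (try simp only [map_add, map_mul, map_pow, map_zero, map_one, hff, it53]) <;> linear_combination (0 : K) * h2
      · (try simp only [map_add, map_mul, map_pow, map_zero, map_one, hff, it53]) <;> linear_combination (0 : K) * h2
      · (try simp only [map_add, map_mul, map_pow, map_zero, map_one, hff, it53]) <;> linear_combination (0 : K) * h2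
      · (try simp only [map_add, map_mul, map_pow, map_zero, map_one, hff, it53]) <;> linear_combination (0 : K) * h2
      · (try simp only [map_add, map_mul, map_pow, map_zero, map_one, hff, it53]) <;> linear_combination (0 : K) * h2
      · (try simp only [map_add, map_mul, map_pow, map_zero, map_one, hff, it53]) <;> linear_combination (0 : K) * h2
      · (try simp only [map_add, map_mul, map_pow, map_zero, map_one, hff, it53]) <;> linear_combination (0 : K) * h2
      · (try simp only [map_add, map_mul, map_pow, map_zero, map_one, hff, it53]) <;> linear_combination (0 : K) * h2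
      · (try simp only [map_add, map_mul, map_pow, map_zero, map_one, hff, it53]) <;> linear_combination (0 : K) * h2
      · (try simp only [map_add, map_mul, map_pow, map_zero, map_one, hff, it53]) <;> linear_combination (0 : K) * h2
      · (try simp only [map_add, map_mul, map_pow, map_zero, map_one, hff, it53]) <;> linear_combination (0 : K) * h2
      · (try simp only [map_add, map_mul, map_pow, map_zero, map_one, hff, it53]) <;> linear_combination (0 : K) * h2
      · (try simp only [map_add, map_mul, map_pow, map_zero, map_one, hff, it53]) <;> linear_combination (0 : K) * h2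
      · (try simp only [map_add, map_mul, map_pow, map_zero, map_one, hff, it53]) <;> linear_combination (0 : K) * h2
      · (try simp only [map_add, map_mul, map_pow, map_zero, map_one, hff, it53]) <;> linear_combination (0 : K) * h2
      · (try simp only [map_add, map_mul, map_pow, map_zero, map_one, hff, it53]) <;> linear_combination (0 : K) * h2
      · (try simp only [map_add, map_mul, map_pow, map_zero, map_one, hff, it53]) <;> linear_combination (0 : K) * h2
      · (try simp only [map_add, map_mul, map_pow, map_zero, map_one, hff, it53]) <;> linear_combination (0 : K) * h2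
      · (try simp only [map_add, map_mul, map_pow, map_zero, map_one, hff, it53]) <;> linear_combination (0 : K) * h2
      · (try simp only [map_add, map_mul, map_pow, map_zero, map_one, hff, it53]) <;> linear_combination (0 : K) * h2
      · (try simp only [map_add, map_mul, map_pow, map_zero, map_one, hff, it53]) <;> linear_combination (0 : K) * h2

theorem U4_1_1_2_1_1_1 {l37 t46 : K} (d : Dt f) (hp46 : t46 ≠ 0) (hm : E f 0 (l37) 0 0 0 0 0 0 (t46) 0 0 0 0 0 0 0 0 0 0 0 0 0 0 0 ∈ (sc f).G1) (hs : E f 0 (l37) 0 0 0 0 0 0 (t46) 0 0 0 0 0 0 0 0 0 0 0 0 0 0 0 * E f 0 (l37) 0 0 0 0 0 0 (t46) 0 0 0 0 0 0 0 0 0 0 0 0 0 0 0 = 1) : Res f (E f 0 (l37) 0 0 0 0 0 0 (t46) 0 0 0 0 0 0 0 0 0 0 0 0 0 0 0) := by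
  exact LA d hp46 hm hs

theorem U4_1_1_2_1_1 {l37 t53 : K} (d : Dt f) (hp37 : l37 ≠ 0) (hp53 : t53 ≠ 0) (hm : E f 0 (l37) 0 0 0 0 0 0 0 0 0 0 0 0 (t53) 0 0 0 0 0 0 0 0 0 ∈ (sc f).G1) (hs : E f 0 (l37) 0 0 0 0 0 0 0 0 0 0 0 0 (t53) 0 0 0 0 0 0 0 0 0 * E f 0 (l37) 0 0 0 0 0 0 0 0 0 0 0 0 (t53) 0 0 0 0 0 0 0 0 0 = 1) : Res f (E f 0 (l37) 0 0 0 0 0 0 0 0 0 0 0 0 (t53) 0 0 0 0 0 0 0 0 0) := by
  obtain ⟨it39, it44, it46, it47, it51, it53, it60, it63, it65, it69, it70, it71⟩ := inv_of_mem d hm
  have c : Cj f (E f 0 (l37) 0 0 0 0 0 0 0 0 0 0 0 0 (t53) 0 0 0 0 0 0 0 0 0) (E f 0 ((f l37)) 0 0 0 0 0 0 (t53) 0 0 0 0 0 0 0 0 0 0 0 0 0 0 0) := cjN f (nR_mem f [1, 2, 1]) (nE_U4_1_1_2_1_1 d.hff it53)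
  exact Res.of_cj f c (U4_1_1_2_1_1_1 d hp53 (c.mem f hm) (c.sq f hs))

theorem U4_1_1_2_1 {l37 t53 t71 : K} (d : Dt f) (hp37 : l37 ≠ 0) (hp53 : t53 ≠ 0) (hm : E f 0 (l37) 0 0 0 0 0 0 0 0 0 0 0 0 (t53) 0 0 0 0 0 0 0 0 (t71) ∈ (sc f).G1) (hs : E f 0 (l37) 0 0 0 0 0 0 0 0 0 0 0 0 (t53) 0 0 0 0 0 0 0 0 (t71) * E f 0 (l37) 0 0 0 0 0 0 0 0 0 0 0 0 (t53) 0 0 0 0 0 0 0 0 (t71) = 1) : Res f (E f 0 (l37) 0 0 0 0 0 0 0 0 0 0 0 0 (t53) 0 0 0 0 0 0 0 0 (t71)) := by
  obtain ⟨it39, it44, it46, it47, it51, it53, it60, it63, it65, it69, it70, it71⟩ := inv_of_mem d hm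
  obtain ⟨w, hw, rfl⟩ := solve_fix hp53 (by simp only [map_mul, map_pow, map_one, map_zero, map_add, it53]) it71
  have c : Cj f (E f 0 (l37) 0 0 0 0 0 0 0 0 0 0 0 0 (t53) 0 0 0 0 0 0 0 0 ((t53) * w)) (E f 0 (l37) 0 0 0 0 0 0 0 0 0 0 0 0 (t53) 0 0 0 0 0 0 0 0 0) := cjS f (E_mem_G1 d (map_zero f) (map_zero f) (map_zero f) (map_zero f) (map_zero f) (map_zero f) (map_zero f) hw (map_zero f) (map_zero f) (map_zero f) (map_zero f) 0 0 0 0 0 0 0 0 0 0 0 0) (st_U4_1_1_2_1 d.hff it53 hw)
  exact Res.of_cj f c (U4_1_1_2_1_1 d hp37 hp53 (c.mem f hm) (c.sq f hs))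

theorem U4_1_1_2 {l37 t53 t70 t71 : K} (d : Dt f) (hp37 : l37 ≠ 0) (hp53 : t53 ≠ 0) (hm : E f 0 (l37) 0 0 0 0 0 0 0 0 0 0 0 0 (t53) 0 0 0 0 0 0 0 (t70) (t71) ∈ (sc f).G1) (hs : E f 0 (l37) 0 0 0 0 0 0 0 0 0 0 0 0 (t53) 0 0 0 0 0 0 0 (t70) (t71) * E f 0 (l37) 0 0 0 0 0 0 0 0 0 0 0 0 (t53) 0 0 0 0 0 0 0 (t70) (t71) = 1) : Res f (E f 0 (l37) 0 0 0 0 0 0 0 0 0 0 0 0 (t53) 0 0 0 0 0 0 0 (t70) (t71)) := by
  obtain ⟨it39, it44, it46, it47, it51, it53, it60, it63, it65, it69, it70, it71⟩ := inv_of_mem d hm
  obtain ⟨w, hw, rfl⟩ := solve_fix hp53 (by simp only [map_mul, map_pow, map_one, map_zero, map_add, it53]) it70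
  have c : Cj f (E f 0 (l37) 0 0 0 0 0 0 0 0 0 0 0 0 (t53) 0 0 0 0 0 0 0 ((t53) * w) (t71)) (E f 0 (l37) 0 0 0 0 0 0 0 0 0 0 0 0 (t53) 0 0 0 0 0 0 0 0 (t71)) := cjS f (E_mem_G1 d (map_zero f) (map_zero f) (map_zero f) (map_zero f) (map_zero f) (map_zero f) hw (map_zero f) (map_zero f) (map_zero f) (map_zero f) (map_zero f) 0 0 0 0 0 0 0 0 0 0 0 0) (st_U4_1_1_2 d.hff it53 it71 hw)
  exact Res.of_cj f c (U4_1_1_2_1 d hp37 hp53 (c.mem f hm) (c.sq f hs))

theorem U4_1_1 {l37 t53 t70 t71 : K} (d : Dt f) (hp37 : l37 ≠ 0) (hm : E f 0 (l37) 0 0 0 0 0 0 0 0 0 0 0 0 (t53) 0 0 0 0 0 0 0 (t70) (t71) ∈ (sc f).G1) (hs : E f 0 (l37) 0 0 0 0 0 0 0 0 0 0 0 0 (t53) 0 0 0 0 0 0 0 (t70) (t71) * E f 0 (l37) 0 0 0 0 0 0 0 0 0 0 0 0 (t53) 0 0 0 0 0 0 0 (t70) (t71) = 1) : Res f (E f 0 (l37) 0 0 0 0 0 0 0 0 0 0 0 0 (t53) 0 0 0 0 0 0 0 (t70) (t71)) := by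
  by_cases hz : t53 = 0
  · subst hz
    exact U4_1_1_1 d hp37 hm hs
  · exact U4_1_1_2 d hp37 hz hm hs

theorem nE_U4_1_2_1 {l37 t63 t70 t71 : K} (hff : ∀ t, f (f t) = t) (it63 : f t63 = t63) (it70 : f t70 = t70) (it71 : f t71 = t71) :
    nR [1, 2, 3] * E f 0 (l37) 0 0 0 0 0 0 0 0 0 0 0 0 0 0 0 0 (t63) 0 0 0 (t70) (t71) * (nR [1, 2, 3])⁻¹ = E f (l37) 0 0 0 0 0 0 0 (t63) 0 0 0 0 0 0 0 0 0 0 0 0 (t70) 0 (t71) := by
  have h2 : (2 : K) = 0 := CharTwo.two_eq_zero
  have c37 := fun t : K => nR_at (l := [1, 2, 3]) (s := 37) (m := 36) (by decide +kernel) t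
  have c42 := fun t : K => nR_at (l := [1, 2, 3]) (s := 42) (m := 56) (by decide +kernel) t
  have c63 := fun t : K => nR_at (l := [1, 2, 3]) (s := 63) (m := 46) (by decide +kernel) t
  have c70 := fun t : K => nR_at (l := [1, 2, 3]) (s := 70) (m := 69) (by decide +kernel) t
  have c71 := fun t : K => nR_at (l := [1, 2, 3]) (s := 71) (m := 71) (by decide +kernel) t
  unfold E
  rw [conj_W]
  simp only [map_zero, zero_mul, mul_zero, add_zero, zero_add, conj_x0, one_mul, c37, c42, c63, c70, c71]
  rw [← W_zero (K := K)]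
  simp only [xW_36, xW_46, xW_56, xW_69, xW_71, zero_mul, mul_zero, add_zero, zero_add]
  first
    | done
    | apply W_congr
      · (try simp only [map_add, map_mul, map_pow, map_zero, map_one, hff, it63, it70, it71]) <;> linear_combination (0 : K) * h2
      · (try simp only [map_add, map_mul, map_pow, map_zero, map_one, hff, it63, it70, it71]) <;> linear_combination (0 : K) * h2
      · (try simp only [map_add, map_mul, map_pow, map_zero, map_one, hff, it63, it70, it71]) <;> linear_combination (0 : K) * h2
      · (try simp only [map_add, map_mul, map_pow, map_zero, map_one, hff, it63, it70, it71]) <;> linear_combination (0 : K) * h2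
      · (try simp only [map_add, map_mul, map_pow, map_zero, map_one, hff, it63, it70, it71]) <;> linear_combination (0 : K) * h2
      · (try simp only [map_add, map_mul, map_pow, map_zero, map_one, hff, it63, it70, it71]) <;> linear_combination (0 : K) * h2
      · (try simp only [map_add, map_mul, map_pow, map_zero, map_one, hff, it63, it70, it71]) <;> linear_combination (0 : K) * h2
      · (try simp only [map_add, map_mul, map_pow, map_zero, map_one, hff, it63, it70, it71]) <;> linear_combination (0 : K) * h2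
      · (try simp only [map_add, map_mul, map_pow, map_zero, map_one, hff, it63, it70, it71]) <;> linear_combination (0 : K) * h2
      · (try simp only [map_add, map_mul, map_pow, map_zero, map_one, hff, it63, it70, it71]) <;> linear_combination (0 : K) * h2
      · (try simp only [map_add, map_mul, map_pow, map_zero, map_one, hff, it63, it70, it71]) <;> linear_combination (0 : K) * h2
      · (try simp only [map_add, map_mul, map_pow, map_zero, map_one, hff, it63, it70, it71]) <;> linear_combination (0 : K) * h2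
      · (try simp only [map_add, map_mul, map_pow, map_zero, map_one, hff, it63, it70, it71]) <;> linear_combination (0 : K) * h2
      · (try simp only [map_add, map_mul, map_pow, map_zero, map_one, hff, it63, it70, it71]) <;> linear_combination (0 : K) * h2
      · (try simp only [map_add, map_mul, map_pow, map_zero, map_one, hff, it63, it70, it71]) <;> linear_combination (0 : K) * h2
      · (try simp only [map_add, map_mul, map_pow, map_zero, map_one, hff, it63, it70, it71]) <;> linear_combination (0 : K) * h2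
      · (try simp only [map_add, map_mul, map_pow, map_zero, map_one, hff, it63, it70, it71]) <;> linear_combination (0 : K) * h2
      · (try simp only [map_add, map_mul, map_pow, map_zero, map_one, hff, it63, it70, it71]) <;> linear_combination (0 : K) * h2
      · (try simp only [map_add, map_mul, map_pow, map_zero, map_one, hff, it63, it70, it71]) <;> linear_combination (0 : K) * h2
      · (try simp only [map_add, map_mul, map_pow, map_zero, map_one, hff, it63, it70, it71]) <;> linear_combination (0 : K) * h2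
      · (try simp only [map_add, map_mul, map_pow, map_zero, map_one, hff, it63, it70, it71]) <;> linear_combination (0 : K) * h2
      · (try simp only [map_add, map_mul, map_pow, map_zero, map_one, hff, it63, it70, it71]) <;> linear_combination (0 : K) * h2
      · (try simp only [map_add, map_mul, map_pow, map_zero, map_one, hff, it63, it70, it71]) <;> linear_combination (0 : K) * h2
      · (try simp only [map_add, map_mul, map_pow, map_zero, map_one, hff, it63, it70, it71]) <;> linear_combination (0 : K) * h2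
      · (try simp only [map_add, map_mul, map_pow, map_zero, map_one, hff, it63, it70, it71]) <;> linear_combination (0 : K) * h2
      · (try simp only [map_add, map_mul, map_pow, map_zero, map_one, hff, it63, it70, it71]) <;> linear_combination (0 : K) * h2
      · (try simp only [map_add, map_mul, map_pow, map_zero, map_one, hff, it63, it70, it71]) <;> linear_combination (0 : K) * h2
      · (try simp only [map_add, map_mul, map_pow, map_zero, map_one, hff, it63, it70, it71]) <;> linear_combination (0 : K) * h2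
      · (try simp only [map_add, map_mul, map_pow, map_zero, map_one, hff, it63, it70, it71]) <;> linear_combination (0 : K) * h2
      · (try simp only [map_add, map_mul, map_pow, map_zero, map_one, hff, it63, it70, it71]) <;> linear_combination (0 : K) * h2
      · (try simp only [map_add, map_mul, map_pow, map_zero, map_one, hff, it63, it70, it71]) <;> linear_combination (0 : K) * h2
      · (try simp only [map_add, map_mul, map_pow, map_zero, map_one, hff, it63, it70, it71]) <;> linear_combination (0 : K) * h2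
      · (try simp only [map_add, map_mul, map_pow, map_zero, map_one, hff, it63, it70, it71]) <;> linear_combination (0 : K) * h2
      · (try simp only [map_add, map_mul, map_pow, map_zero, map_one, hff, it63, it70, it71]) <;> linear_combination (0 : K) * h2
      · (try simp only [map_add, map_mul, map_pow, map_zero, map_one, hff, it63, it70, it71]) <;> linear_combination (0 : K) * h2
      · (try simp only [map_add, map_mul, map_pow, map_zero, map_one, hff, it63, it70, it71]) <;> linear_combination (0 : K) * h2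

theorem U4_1_2_1_1 {l36 t46 t69 t71 : K} (d : Dt f) (hp46 : t46 ≠ 0) (hm : E f (l36) 0 0 0 0 0 0 0 (t46) 0 0 0 0 0 0 0 0 0 0 0 0 (t69) 0 (t71) ∈ (sc f).G1) (hs : E f (l36) 0 0 0 0 0 0 0 (t46) 0 0 0 0 0 0 0 0 0 0 0 0 (t69) 0 (t71) * E f (l36) 0 0 0 0 0 0 0 (t46) 0 0 0 0 0 0 0 0 0 0 0 0 (t69) 0 (t71) = 1) : Res f (E f (l36) 0 0 0 0 0 0 0 (t46) 0 0 0 0 0 0 0 0 0 0 0 0 (t69) 0 (t71)) := by
  exact LA d hp46 hm hs

theorem U4_1_2_1 {l37 t63 t70 t71 : K} (d : Dt f) (hp37 : l37 ≠ 0) (hp63 : t63 ≠ 0) (hm : E f 0 (l37) 0 0 0 0 0 0 0 0 0 0 0 0 0 0 0 0 (t63) 0 0 0 (t70) (t71) ∈ (sc f).G1) (hs : E f 0 (l37) 0 0 0 0 0 0 0 0 0 0 0 0 0 0 0 0 (t63) 0 0 0 (t70) (t71) * E f 0 (l37) 0 0 0 0 0 0 0 0 0 0 0 0 0 0 0 0 (t63) 0 0 0 (t70) (t71) = 1) : Res f (E f 0 (l37) 0 0 0 0 0 0 0 0 0 0 0 0 0 0 0 0 (t63) 0 0 0 (t70) (t71)) := by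
  obtain ⟨it39, it44, it46, it47, it51, it53, it60, it63, it65, it69, it70, it71⟩ := inv_of_mem d hm
  have c : Cj f (E f 0 (l37) 0 0 0 0 0 0 0 0 0 0 0 0 0 0 0 0 (t63) 0 0 0 (t70) (t71)) (E f (l37) 0 0 0 0 0 0 0 (t63) 0 0 0 0 0 0 0 0 0 0 0 0 (t70) 0 (t71)) := cjN f (nR_mem f [1, 2, 3]) (nE_U4_1_2_1 d.hff it63 it70 it71)
  exact Res.of_cj f c (U4_1_2_1_1 d hp63 (c.mem f hm) (c.sq f hs))

theorem U4_1_2 {l37 t53 t63 t70 t71 : K} (d : Dt f) (hp37 : l37 ≠ 0) (hp63 : t63 ≠ 0) (hm : E f 0 (l37) 0 0 0 0 0 0 0 0 0 0 0 0 (t53) 0 0 0 (t63) 0 0 0 (t70) (t71) ∈ (sc f).G1) (hs : E f 0 (l37) 0 0 0 0 0 0 0 0 0 0 0 0 (t53) 0 0 0 (t63) 0 0 0 (t70) (t71) * E f 0 (l37) 0 0 0 0 0 0 0 0 0 0 0 0 (t53) 0 0 0 (t63) 0 0 0 (t70) (t71) = 1) : Res f (E f 0 (l37) 0 0 0 0 0 0 0 0 0 0 0 0 (t53) 0 0 0 (t63) 0 0 0 (t70) (t71)) := by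
  have h2 : (2 : K) = 0 := CharTwo.two_eq_zero
  have hz : t53 = 0 := by
    have h := hs
    unfold E at h
    rw [W_mul, ← W_zero] at h
    obtain ⟨-, -, -, -, -, -, -, -, -, -, -, -, -, -, -, -, -, -, -, -, -, -, -, -, -, -, -, -, -, -, -, -, -, -, -, h71⟩ := W_inj h
    try simp only [map_zero] at h71
    have key : t53*t63 = 0 := by linear_combination (-t71) * h2 + h71
    simpa [mul_eq_zero, map_eq_zero, pow_eq_zero_iff, hp37, hp63] using key
  subst hz
  exact U4_1_2_1 d hp37 hp63 hm hs

theorem U4_1 {l37 t53 t63 t70 t71 : K} (d : Dt f) (hp37 : l37 ≠ 0) (hm : E f 0 (l37) 0 0 0 0 0 0 0 0 0 0 0 0 (t53) 0 0 0 (t63) 0 0 0 (t70) (t71) ∈ (sc f).G1) (hs : E f 0 (l37) 0 0 0 0 0 0 0 0 0 0 0 0 (t53) 0 0 0 (t63) 0 0 0 (t70) (t71) * E f 0 (l37) 0 0 0 0 0 0 0 0 0 0 0 0 (t53) 0 0 0 (t63) 0 0 0 (t70) (t71) = 1) : Res f (E f 0 (l37) 0 0 0 0 0 0 0 0 0 0 0 0 (t53) 0 0 0 (t63) 0 0 0 (t70) (t71)) := by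
  by_cases hz : t63 = 0
  · subst hz
    exact U4_1_1 d hp37 hm hs
  · exact U4_1_2 d hp37 hz hm hs

theorem st_U4_2_1 {l37 t60 t70 t71 w : K} (hff : ∀ t, f (f t) = t) (it60 : f t60 = t60) (it70 : f t70 = t70) (it71 : f t71 = t71) (iw : f w = w) :
    E f 0 0 0 0 0 0 0 0 (w) 0 0 0 0 0 0 0 0 0 0 0 0 0 0 0 * E f 0 (l37) 0 0 0 0 0 0 0 0 0 0 0 0 0 0 0 (t60) ((t60) * w) 0 0 0 (t70) (t71) = E f 0 (l37) 0 0 0 0 0 0 0 0 0 0 0 0 0 0 0 (t60) 0 0 0 0 (t70) (t71 + t70*w) * E f 0 0 0 0 0 0 0 0 (w) 0 0 0 0 0 0 0 0 0 0 0 0 0 0 0 := by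
  have h2 : (2 : K) = 0 := CharTwo.two_eq_zero
  unfold E
  rw [W_mul, W_mul]
  apply W_congr
  · (try simp only [map_add, map_mul, map_pow, map_zero, map_one, hff, it60, it70, it71, iw]) <;> linear_combination (0 : K) * h2
  · (try simp only [map_add, map_mul, map_pow, map_zero, map_one, hff, it60, it70, it71, iw]) <;> linear_combination (0 : K) * h2
  · (try simp only [map_add, map_mul, map_pow, map_zero, map_one, hff, it60, it70, it71, iw]) <;> linear_combination (0 : K) * h2
  · (try simp only [map_add, map_mul, map_pow, map_zero, map_one, hff, it60, it70, it71, iw]) <;> linear_combination (0 : K) * h2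
  · (try simp only [map_add, map_mul, map_pow, map_zero, map_one, hff, it60, it70, it71, iw]) <;> linear_combination (0 : K) * h2
  · (try simp only [map_add, map_mul, map_pow, map_zero, map_one, hff, it60, it70, it71, iw]) <;> linear_combination (0 : K) * h2
  · (try simp only [map_add, map_mul, map_pow, map_zero, map_one, hff, it60, it70, it71, iw]) <;> linear_combination (0 : K) * h2
  · (try simp only [map_add, map_mul, map_pow, map_zero, map_one, hff, it60, it70, it71, iw]) <;> linear_combination (0 : K) * h2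
  · (try simp only [map_add, map_mul, map_pow, map_zero, map_one, hff, it60, it70, it71, iw]) <;> linear_combination (0 : K) * h2
  · (try simp only [map_add, map_mul, map_pow, map_zero, map_one, hff, it60, it70, it71, iw]) <;> linear_combination (0 : K) * h2
  · (try simp only [map_add, map_mul, map_pow, map_zero, map_one, hff, it60, it70, it71, iw]) <;> linear_combination (0 : K) * h2
  · (try simp only [map_add, map_mul, map_pow, map_zero, map_one, hff, it60, it70, it71, iw]) <;> linear_combination (0 : K) * h2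
  · (try simp only [map_add, map_mul, map_pow, map_zero, map_one, hff, it60, it70, it71, iw]) <;> linear_combination (0 : K) * h2
  · (try simp only [map_add, map_mul, map_pow, map_zero, map_one, hff, it60, it70, it71, iw]) <;> linear_combination (0 : K) * h2
  · (try simp only [map_add, map_mul, map_pow, map_zero, map_one, hff, it60, it70, it71, iw]) <;> linear_combination (0 : K) * h2
  · (try simp only [map_add, map_mul, map_pow, map_zero, map_one, hff, it60, it70, it71, iw]) <;> linear_combination (0 : K) * h2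
  · (try simp only [map_add, map_mul, map_pow, map_zero, map_one, hff, it60, it70, it71, iw]) <;> linear_combination (0 : K) * h2
  · (try simp only [map_add, map_mul, map_pow, map_zero, map_one, hff, it60, it70, it71, iw]) <;> linear_combination (0 : K) * h2
  · (try simp only [map_add, map_mul, map_pow, map_zero, map_one, hff, it60, it70, it71, iw]) <;> linear_combination (0 : K) * h2
  · (try simp only [map_add, map_mul, map_pow, map_zero, map_one, hff, it60, it70, it71, iw]) <;> linear_combination (0 : K) * h2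
  · (try simp only [map_add, map_mul, map_pow, map_zero, map_one, hff, it60, it70, it71, iw]) <;> linear_combination (0 : K) * h2
  · (try simp only [map_add, map_mul, map_pow, map_zero, map_one, hff, it60, it70, it71, iw]) <;> linear_combination (0 : K) * h2
  · (try simp only [map_add, map_mul, map_pow, map_zero, map_one, hff, it60, it70, it71, iw]) <;> linear_combination (0 : K) * h2
  · (try simp only [map_add, map_mul, map_pow, map_zero, map_one, hff, it60, it70, it71, iw]) <;> linear_combination (0 : K) * h2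
  · (try simp only [map_add, map_mul, map_pow, map_zero, map_one, hff, it60, it70, it71, iw]) <;> linear_combination (0 : K) * h2
  · (try simp only [map_add, map_mul, map_pow, map_zero, map_one, hff, it60, it70, it71, iw]) <;> linear_combination (0 : K) * h2
  · (try simp only [map_add, map_mul, map_pow, map_zero, map_one, hff, it60, it70, it71, iw]) <;> linear_combination (0 : K) * h2
  · (try simp only [map_add, map_mul, map_pow, map_zero, map_one, hff, it60, it70, it71, iw]) <;> linear_combination (0 : K) * h2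
  · (try simp only [map_add, map_mul, map_pow, map_zero, map_one, hff, it60, it70, it71, iw]) <;> linear_combination (0 : K) * h2
  · (try simp only [map_add, map_mul, map_pow, map_zero, map_one, hff, it60, it70, it71, iw]) <;> linear_combination (0 : K) * h2
  · (try simp only [map_add, map_mul, map_pow, map_zero, map_one, hff, it60, it70, it71, iw]) <;> linear_combination (0 : K) * h2
  · (try simp only [map_add, map_mul, map_pow, map_zero, map_one, hff, it60, it70, it71, iw]) <;> linear_combination (0 : K) * h2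
  · (try simp only [map_add, map_mul, map_pow, map_zero, map_one, hff, it60, it70, it71, iw]) <;> linear_combination (0 : K) * h2
  · (try simp only [map_add, map_mul, map_pow, map_zero, map_one, hff, it60, it70, it71, iw]) <;> linear_combination (0 : K) * h2
  · (try simp only [map_add, map_mul, map_pow, map_zero, map_one, hff, it60, it70, it71, iw]) <;> linear_combination (0 : K) * h2
  · (try simp only [map_add, map_mul, map_pow, map_zero, map_one, hff, it60, it70, it71, iw]) <;> linear_combination (-t70*w) * h2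

theorem nE_U4_2_1_1 {l37 t60 t70 t71 : K} (hff : ∀ t, f (f t) = t) (it60 : f t60 = t60) (it70 : f t70 = t70) (it71 : f t71 = t71) :
    nR [1, 2, 3, 0] * E f 0 (l37) 0 0 0 0 0 0 0 0 0 0 0 0 0 0 0 (t60) 0 0 0 0 (t70) (t71) * (nR [1, 2, 3, 0])⁻¹ = E f (l37) 0 0 0 0 0 0 0 (t60) 0 0 0 0 0 0 0 0 0 0 0 0 (t71) 0 (t70) := by
  have h2 : (2 : K) = 0 := CharTwo.two_eq_zero
  have c37 := fun t : K => nR_at (l := [1, 2, 3, 0]) (s := 37) (m := 36) (by decide +kernel) t
  have c42 := fun t : K => nR_at (l := [1, 2, 3, 0]) (s := 42) (m := 56) (by decide +kernel) t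
  have c60 := fun t : K => nR_at (l := [1, 2, 3, 0]) (s := 60) (m := 46) (by decide +kernel) t
  have c70 := fun t : K => nR_at (l := [1, 2, 3, 0]) (s := 70) (m := 71) (by decide +kernel) t
  have c71 := fun t : K => nR_at (l := [1, 2, 3, 0]) (s := 71) (m := 69) (by decide +kernel) t
  unfold E
  rw [conj_W]
  simp only [map_zero, zero_mul, mul_zero, add_zero, zero_add, conj_x0, one_mul, c37, c42, c60, c70, c71]
  rw [← W_zero (K := K)]
  simp only [xW_36, xW_46, xW_56, xW_69, xW_71, zero_mul, mul_zero, add_zero, zero_add]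
  first
    | done
    | apply W_congr
      · (try simp only [map_add, map_mul, map_pow, map_zero, map_one, hff, it60, it70, it71]) <;> linear_combination (0 : K) * h2
      · (try simp only [map_add, map_mul, map_pow, map_zero, map_one, hff, it60, it70, it71]) <;> linear_combination (0 : K) * h2
      · (try simp only [map_add, map_mul, map_pow, map_zero, map_one, hff, it60, it70, it71]) <;> linear_combination (0 : K) * h2
      · (try simp only [map_add, map_mul, map_pow, map_zero, map_one, hff, it60, it70, it71]) <;> linear_combination (0 : K) * h2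
      · (try simp only [map_add, map_mul, map_pow, map_zero, map_one, hff, it60, it70, it71]) <;> linear_combination (0 : K) * h2
      · (try simp only [map_add, map_mul, map_pow, map_zero, map_one, hff, it60, it70, it71]) <;> linear_combination (0 : K) * h2
      · (try simp only [map_add, map_mul, map_pow, map_zero, map_one, hff, it60, it70, it71]) <;> linear_combination (0 : K) * h2
      · (try simp only [map_add, map_mul, map_pow, map_zero, map_one, hff, it60, it70, it71]) <;> linear_combination (0 : K) * h2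
      · (try simp only [map_add, map_mul, map_pow, map_zero, map_one, hff, it60, it70, it71]) <;> linear_combination (0 : K) * h2
      · (try simp only [map_add, map_mul, map_pow, map_zero, map_one, hff, it60, it70, it71]) <;> linear_combination (0 : K) * h2
      · (try simp only [map_add, map_mul, map_pow, map_zero, map_one, hff, it60, it70, it71]) <;> linear_combination (0 : K) * h2
      · (try simp only [map_add, map_mul, map_pow, map_zero, map_one, hff, it60, it70, it71]) <;> linear_combination (0 : K) * h2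
      · (try simp only [map_add, map_mul, map_pow, map_zero, map_one, hff, it60, it70, it71]) <;> linear_combination (0 : K) * h2
      · (try simp only [map_add, map_mul, map_pow, map_zero, map_one, hff, it60, it70, it71]) <;> linear_combination (0 : K) * h2
      · (try simp only [map_add, map_mul, map_pow, map_zero, map_one, hff, it60, it70, it71]) <;> linear_combination (0 : K) * h2
      · (try simp only [map_add, map_mul, map_pow, map_zero, map_one, hff, it60, it70, it71]) <;> linear_combination (0 : K) * h2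
      · (try simp only [map_add, map_mul, map_pow, map_zero, map_one, hff, it60, it70, it71]) <;> linear_combination (0 : K) * h2
      · (try simp only [map_add, map_mul, map_pow, map_zero, map_one, hff, it60, it70, it71]) <;> linear_combination (0 : K) * h2
      · (try simp only [map_add, map_mul, map_pow, map_zero, map_one, hff, it60, it70, it71]) <;> linear_combination (0 : K) * h2
      · (try simp only [map_add, map_mul, map_pow, map_zero, map_one, hff, it60, it70, it71]) <;> linear_combination (0 : K) * h2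
      · (try simp only [map_add, map_mul, map_pow, map_zero, map_one, hff, it60, it70, it71]) <;> linear_combination (0 : K) * h2
      · (try simp only [map_add, map_mul, map_pow, map_zero, map_one, hff, it60, it70, it71]) <;> linear_combination (0 : K) * h2
      · (try simp only [map_add, map_mul, map_pow, map_zero, map_one, hff, it60, it70, it71]) <;> linear_combination (0 : K) * h2
      · (try simp only [map_add, map_mul, map_pow, map_zero, map_one, hff, it60, it70, it71]) <;> linear_combination (0 : K) * h2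
      · (try simp only [map_add, map_mul, map_pow, map_zero, map_one, hff, it60, it70, it71]) <;> linear_combination (0 : K) * h2
      · (try simp only [map_add, map_mul, map_pow, map_zero, map_one, hff, it60, it70, it71]) <;> linear_combination (0 : K) * h2
      · (try simp only [map_add, map_mul, map_pow, map_zero, map_one, hff, it60, it70, it71]) <;> linear_combination (0 : K) * h2
      · (try simp only [map_add, map_mul, map_pow, map_zero, map_one, hff, it60, it70, it71]) <;> linear_combination (0 : K) * h2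
      · (try simp only [map_add, map_mul, map_pow, map_zero, map_one, hff, it60, it70, it71]) <;> linear_combination (0 : K) * h2
      · (try simp only [map_add, map_mul, map_pow, map_zero, map_one, hff, it60, it70, it71]) <;> linear_combination (0 : K) * h2
      · (try simp only [map_add, map_mul, map_pow, map_zero, map_one, hff, it60, it70, it71]) <;> linear_combination (0 : K) * h2
      · (try simp only [map_add, map_mul, map_pow, map_zero, map_one, hff, it60, it70, it71]) <;> linear_combination (0 : K) * h2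
      · (try simp only [map_add, map_mul, map_pow, map_zero, map_one, hff, it60, it70, it71]) <;> linear_combination (0 : K) * h2
      · (try simp only [map_add, map_mul, map_pow, map_zero, map_one, hff, it60, it70, it71]) <;> linear_combination (0 : K) * h2
      · (try simp only [map_add, map_mul, map_pow, map_zero, map_one, hff, it60, it70, it71]) <;> linear_combination (0 : K) * h2
      · (try simp only [map_add, map_mul, map_pow, map_zero, map_one, hff, it60, it70, it71]) <;> linear_combination (0 : K) * h2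

theorem U4_2_1_1_1 {l36 t46 t69 t71 : K} (d : Dt f) (hp46 : t46 ≠ 0) (hm : E f (l36) 0 0 0 0 0 0 0 (t46) 0 0 0 0 0 0 0 0 0 0 0 0 (t69) 0 (t71) ∈ (sc f).G1) (hs : E f (l36) 0 0 0 0 0 0 0 (t46) 0 0 0 0 0 0 0 0 0 0 0 0 (t69) 0 (t71) * E f (l36) 0 0 0 0 0 0 0 (t46) 0 0 0 0 0 0 0 0 0 0 0 0 (t69) 0 (t71) = 1) : Res f (E f (l36) 0 0 0 0 0 0 0 (t46) 0 0 0 0 0 0 0 0 0 0 0 0 (t69) 0 (t71)) := by
  exact LA d hp46 hm hs

theorem U4_2_1_1 {l37 t60 t70 t71 : K} (d : Dt f) (hp37 : l37 ≠ 0) (hp60 : t60 ≠ 0) (hm : E f 0 (l37) 0 0 0 0 0 0 0 0 0 0 0 0 0 0 0 (t60) 0 0 0 0 (t70) (t71) ∈ (sc f).G1) (hs : E f 0 (l37) 0 0 0 0 0 0 0 0 0 0 0 0 0 0 0 (t60) 0 0 0 0 (t70) (t71) * E f 0 (l37) 0 0 0 0 0 0 0 0 0 0 0 0 0 0 0 (t60) 0 0 0 0 (t70) (t71) = 1) : Res f (E f 0 (l37) 0 0 0 0 0 0 0 0 0 0 0 0 0 0 0 (t60) 0 0 0 0 (t70) (t71)) := by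
  obtain ⟨it39, it44, it46, it47, it51, it53, it60, it63, it65, it69, it70, it71⟩ := inv_of_mem d hm
  have c : Cj f (E f 0 (l37) 0 0 0 0 0 0 0 0 0 0 0 0 0 0 0 (t60) 0 0 0 0 (t70) (t71)) (E f (l37) 0 0 0 0 0 0 0 (t60) 0 0 0 0 0 0 0 0 0 0 0 0 (t71) 0 (t70)) := cjN f (nR_mem f [1, 2, 3, 0]) (nE_U4_2_1_1 d.hff it60 it70 it71)
  exact Res.of_cj f c (U4_2_1_1_1 d hp60 (c.mem f hm) (c.sq f hs))

theorem U4_2_1 {l37 t60 t63 t70 t71 : K} (d : Dt f) (hp37 : l37 ≠ 0) (hp60 : t60 ≠ 0) (hm : E f 0 (l37) 0 0 0 0 0 0 0 0 0 0 0 0 0 0 0 (t60) (t63) 0 0 0 (t70) (t71) ∈ (sc f).G1) (hs : E f 0 (l37) 0 0 0 0 0 0 0 0 0 0 0 0 0 0 0 (t60) (t63) 0 0 0 (t70) (t71) * E f 0 (l37) 0 0 0 0 0 0 0 0 0 0 0 0 0 0 0 (t60) (t63) 0 0 0 (t70) (t71) = 1) : Res f (E f 0 (l37) 0 0 0 0 0 0 0 0 0 0 0 0 0 0 0 (t60) (t63) 0 0 0 (t70) (t71)) := by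
  obtain ⟨it39, it44, it46, it47, it51, it53, it60, it63, it65, it69, it70, it71⟩ := inv_of_mem d hm
  obtain ⟨w, hw, rfl⟩ := solve_fix hp60 (by simp only [map_mul, map_pow, map_one, map_zero, map_add, it60]) it63
  have c : Cj f (E f 0 (l37) 0 0 0 0 0 0 0 0 0 0 0 0 0 0 0 (t60) ((t60) * w) 0 0 0 (t70) (t71)) (E f 0 (l37) 0 0 0 0 0 0 0 0 0 0 0 0 0 0 0 (t60) 0 0 0 0 (t70) (t71 + t70*w)) := cjS f (E_mem_G1 d (map_zero f) (map_zero f) hw (map_zero f) (map_zero f) (map_zero f) (map_zero f) (map_zero f) (map_zero f) (map_zero f) (map_zero f) (map_zero f) 0 0 0 0 0 0 0 0 0 0 0 0) (st_U4_2_1 d.hff it60 it70 it71 hw)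
  exact Res.of_cj f c (U4_2_1_1 d hp37 hp60 (c.mem f hm) (c.sq f hs))

theorem U4_2 {l37 t53 t60 t63 t70 t71 : K} (d : Dt f) (hp37 : l37 ≠ 0) (hp60 : t60 ≠ 0) (hm : E f 0 (l37) 0 0 0 0 0 0 0 0 0 0 0 0 (t53) 0 0 (t60) (t63) 0 0 0 (t70) (t71) ∈ (sc f).G1) (hs : E f 0 (l37) 0 0 0 0 0 0 0 0 0 0 0 0 (t53) 0 0 (t60) (t63) 0 0 0 (t70) (t71) * E f 0 (l37) 0 0 0 0 0 0 0 0 0 0 0 0 (t53) 0 0 (t60) (t63) 0 0 0 (t70) (t71) = 1) : Res f (E f 0 (l37) 0 0 0 0 0 0 0 0 0 0 0 0 (t53) 0 0 (t60) (t63) 0 0 0 (t70) (t71)) := by
  have h2 : (2 : K) = 0 := CharTwo.two_eq_zero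
  have hz : t53 = 0 := by
    have h := hs
    unfold E at h
    rw [W_mul, ← W_zero] at h
    obtain ⟨-, -, -, -, -, -, -, -, -, -, -, -, -, -, -, -, -, -, -, -, -, -, -, -, -, -, -, -, -, -, -, -, -, -, h70, -⟩ := W_inj h
    try simp only [map_zero] at h70
    have key : t53*t60 = 0 := by linear_combination (-t70) * h2 + h70
    simpa [mul_eq_zero, map_eq_zero, pow_eq_zero_iff, hp37, hp60] using key
  subst hz
  exact U4_2_1 d hp37 hp60 hm hs

theorem U4 {l37 t53 t60 t63 t70 t71 : K} (d : Dt f) (hp37 : l37 ≠ 0) (hm : E f 0 (l37) 0 0 0 0 0 0 0 0 0 0 0 0 (t53) 0 0 (t60) (t63) 0 0 0 (t70) (t71) ∈ (sc f).G1) (hs : E f 0 (l37) 0 0 0 0 0 0 0 0 0 0 0 0 (t53) 0 0 (t60) (t63) 0 0 0 (t70) (t71) * E f 0 (l37) 0 0 0 0 0 0 0 0 0 0 0 0 (t53) 0 0 (t60) (t63) 0 0 0 (t70) (t71) = 1) : Res f (E f 0 (l37) 0 0 0 0 0 0 0 0 0 0 0 0 (t53) 0 0 (t60) (t63) 0 0 0 (t70) (t71)) := by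
  by_cases hz : t60 = 0
  · subst hz
    exact U4_1 d hp37 hm hs
  · exact U4_2 d hp37 hz hm hs

theorem LC_1_1_1_1_1_1_1_1_1_1_1_1_1_1_1_1 {l37 t53 t60 t63 t70 t71 : K} (d : Dt f) (hp37 : l37 ≠ 0) (hm : E f 0 (l37) 0 0 0 0 0 0 0 0 0 0 0 0 (t53) 0 0 (t60) (t63) 0 0 0 (t70) (t71) ∈ (sc f).G1) (hs : E f 0 (l37) 0 0 0 0 0 0 0 0 0 0 0 0 (t53) 0 0 (t60) (t63) 0 0 0 (t70) (t71) * E f 0 (l37) 0 0 0 0 0 0 0 0 0 0 0 0 (t53) 0 0 (t60) (t63) 0 0 0 (t70) (t71) = 1) : Res f (E f 0 (l37) 0 0 0 0 0 0 0 0 0 0 0 0 (t53) 0 0 (t60) (t63) 0 0 0 (t70) (t71)) := by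
  exact U4 d hp37 hm hs

theorem LC_1_1_1_1_1_1_1_1_1_1_1_1_1_1_1 {l37 t53 t60 t63 t69 t70 t71 : K} (d : Dt f) (hp37 : l37 ≠ 0) (hm : E f 0 (l37) 0 0 0 0 0 0 0 0 0 0 0 0 (t53) 0 0 (t60) (t63) 0 0 (t69) (t70) (t71) ∈ (sc f).G1) (hs : E f 0 (l37) 0 0 0 0 0 0 0 0 0 0 0 0 (t53) 0 0 (t60) (t63) 0 0 (t69) (t70) (t71) * E f 0 (l37) 0 0 0 0 0 0 0 0 0 0 0 0 (t53) 0 0 (t60) (t63) 0 0 (t69) (t70) (t71) = 1) : Res f (E f 0 (l37) 0 0 0 0 0 0 0 0 0 0 0 0 (t53) 0 0 (t60) (t63) 0 0 (t69) (t70) (t71)) := by
  obtain ⟨it39, it44, it46, it47, it51, it53, it60, it63, it65, it69, it70, it71⟩ := inv_of_mem d hm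
  obtain ⟨y, rfl⟩ := solve_tr d hp37 it69
  have c : Cj f (E f 0 (l37) 0 0 0 0 0 0 0 0 0 0 0 0 (t53) 0 0 (t60) (t63) 0 0 ((l37) * f y + f (l37) * y) (t70) (t71)) (E f 0 (l37) 0 0 0 0 0 0 0 0 0 0 0 0 (t53) 0 0 (t60) (t63) 0 0 0 (t70) (t71)) := cjS f (E_mem_G1 d (map_zero f) (map_zero f) (map_zero f) (map_zero f) (map_zero f) (map_zero f) (map_zero f) (map_zero f) (map_zero f) (map_zero f) (map_zero f) (map_zero f) 0 0 0 0 0 0 0 0 0 0 0 (y)) (st_LC_1_1_1_1_1_1_1_1_1_1_1_1_1_1_1 d.hff it53 it60 it63 it70 it71)
  exact Res.of_cj f c (LC_1_1_1_1_1_1_1_1_1_1_1_1_1_1_1_1 d hp37 (c.mem f hm) (c.sq f hs))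

theorem LC_1_1_1_1_1_1_1_1_1_1_1_1_1_1 {l37 l66 t53 t60 t63 t69 t70 t71 : K} (d : Dt f) (hp37 : l37 ≠ 0) (hm : E f 0 (l37) 0 0 0 0 0 0 0 0 0 0 0 0 (t53) 0 0 (t60) (t63) 0 (l66) (t69) (t70) (t71) ∈ (sc f).G1) (hs : E f 0 (l37) 0 0 0 0 0 0 0 0 0 0 0 0 (t53) 0 0 (t60) (t63) 0 (l66) (t69) (t70) (t71) * E f 0 (l37) 0 0 0 0 0 0 0 0 0 0 0 0 (t53) 0 0 (t60) (t63) 0 (l66) (t69) (t70) (t71) = 1) : Res f (E f 0 (l37) 0 0 0 0 0 0 0 0 0 0 0 0 (t53) 0 0 (t60) (t63) 0 (l66) (t69) (t70) (t71)) := by
  obtain ⟨it39, it44, it46, it47, it51, it53, it60, it63, it65, it69, it70, it71⟩ := inv_of_mem d hm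
  have h2 : (2 : K) = 0 := CharTwo.two_eq_zero
  have h3 : (l37) * f l66 + l66 * f (l37) = 0 := by
    have h := hs
    unfold E at h
    rw [W_mul, ← W_zero] at h
    obtain ⟨-, -, -, -, -, -, -, -, -, -, -, -, -, -, -, -, -, -, -, -, -, -, -, -, -, -, -, -, -, -, -, -, -, h69, -, -⟩ := W_inj h
    try simp only [map_zero] at h69
    linear_combination (-t69) * h2 + h69
  obtain ⟨w, hw, rfl⟩ := solve_sq hp37 d.hff h3
  have c : Cj f (E f 0 (l37) 0 0 0 0 0 0 0 0 0 0 0 0 (t53) 0 0 (t60) (t63) 0 ((l37) * w) (t69) (t70) (t71)) (E f 0 (l37) 0 0 0 0 0 0 0 0 0 0 0 0 (t53) 0 0 (t60) (t63) 0 0 (t69 + l37*w*(f l37)) (t70) (t71)) := cjS f (E_mem_G1 d (map_zero f) (map_zero f) (map_zero f) (map_zero f) (map_zero f) (map_zero f) (map_zero f) (map_zero f) hw (map_zero f) (map_zero f) (map_zero f) 0 0 0 0 0 0 0 0 0 0 0 0) (st_LC_1_1_1_1_1_1_1_1_1_1_1_1_1_1 d.hff it53 it60 it63 it69 it70 it71 hw)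
  exact Res.of_cj f c (LC_1_1_1_1_1_1_1_1_1_1_1_1_1_1_1 d hp37 (c.mem f hm) (c.sq f hs))

theorem LC_1_1_1_1_1_1_1_1_1_1_1_1_1 {l37 l55 l66 t53 t60 t63 t69 t70 t71 : K} (d : Dt f) (hp37 : l37 ≠ 0) (hm : E f 0 (l37) 0 0 0 0 0 0 0 0 0 0 0 0 (t53) 0 (l55) (t60) (t63) 0 (l66) (t69) (t70) (t71) ∈ (sc f).G1) (hs : E f 0 (l37) 0 0 0 0 0 0 0 0 0 0 0 0 (t53) 0 (l55) (t60) (t63) 0 (l66) (t69) (t70) (t71) * E f 0 (l37) 0 0 0 0 0 0 0 0 0 0 0 0 (t53) 0 (l55) (t60) (t63) 0 (l66) (t69) (t70) (t71) = 1) : Res f (E f 0 (l37) 0 0 0 0 0 0 0 0 0 0 0 0 (t53) 0 (l55) (t60) (t63) 0 (l66) (t69) (t70) (t71)) := by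
  obtain ⟨it39, it44, it46, it47, it51, it53, it60, it63, it65, it69, it70, it71⟩ := inv_of_mem d hm
  obtain ⟨y, rfl⟩ := solve_mul hp37 l55
  have c : Cj f (E f 0 (l37) 0 0 0 0 0 0 0 0 0 0 0 0 (t53) 0 ((l37) * y) (t60) (t63) 0 (l66) (t69) (t70) (t71)) (E f 0 (l37) 0 0 0 0 0 0 0 0 0 0 0 0 (t53) 0 0 (t60) (t63) 0 (l66) (t69) (t70) (t71)) := cjS f (E_mem_G1 d (map_zero f) (map_zero f) (map_zero f) (map_zero f) (map_zero f) (map_zero f) (map_zero f) (map_zero f) (map_zero f) (map_zero f) (map_zero f) (map_zero f) 0 0 0 0 0 0 0 0 0 (y) 0 0) (st_LC_1_1_1_1_1_1_1_1_1_1_1_1_1 d.hff it53 it60 it63 it69 it70 it71)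
  exact Res.of_cj f c (LC_1_1_1_1_1_1_1_1_1_1_1_1_1_1 d hp37 (c.mem f hm) (c.sq f hs))

theorem LC_1_1_1_1_1_1_1_1_1_1_1_1 {l37 l55 l66 t53 t60 t63 t65 t69 t70 t71 : K} (d : Dt f) (hp37 : l37 ≠ 0) (hm : E f 0 (l37) 0 0 0 0 0 0 0 0 0 0 0 0 (t53) 0 (l55) (t60) (t63) (t65) (l66) (t69) (t70) (t71) ∈ (sc f).G1) (hs : E f 0 (l37) 0 0 0 0 0 0 0 0 0 0 0 0 (t53) 0 (l55) (t60) (t63) (t65) (l66) (t69) (t70) (t71) * E f 0 (l37) 0 0 0 0 0 0 0 0 0 0 0 0 (t53) 0 (l55) (t60) (t63) (t65) (l66) (t69) (t70) (t71) = 1) : Res f (E f 0 (l37) 0 0 0 0 0 0 0 0 0 0 0 0 (t53) 0 (l55) (t60) (t63) (t65) (l66) (t69) (t70) (t71)) := by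
  have h2 : (2 : K) = 0 := CharTwo.two_eq_zero
  have hz : t65 = 0 := by
    have h := hs
    unfold E at h
    rw [W_mul, ← W_zero] at h
    obtain ⟨-, -, -, -, -, -, -, -, -, -, -, -, -, -, -, -, -, -, -, -, -, -, -, -, -, -, -, -, -, -, h66, -, -, -, -, -⟩ := W_inj h
    try simp only [map_zero] at h66
    have key : l37*t65 = 0 := by linear_combination (-l66) * h2 + h66
    simpa [mul_eq_zero, map_eq_zero, pow_eq_zero_iff, hp37] using key
  subst hz
  exact LC_1_1_1_1_1_1_1_1_1_1_1_1_1 d hp37 hm hs

theorem LC_1_1_1_1_1_1_1_1_1_1_1 {l37 l52 l55 l66 t53 t60 t63 t65 t69 t70 t71 : K} (d : Dt f) (hp37 : l37 ≠ 0) (hm : E f 0 (l37) 0 0 0 0 0 0 0 0 0 0 0 (l52) (t53) 0 (l55) (t60) (t63) (t65) (l66) (t69) (t70) (t71) ∈ (sc f).G1) (hs : E f 0 (l37) 0 0 0 0 0 0 0 0 0 0 0 (l52) (t53) 0 (l55) (t60) (t63) (t65) (l66) (t69) (t70) (t71) * E f 0 (l37) 0 0 0 0 0 0 0 0 0 0 0 (l52) (t53) 0 (l55) (t60) (t63) (t65) (l66) (t69) (t70) (t71) = 1) : Res f (E f 0 (l37) 0 0 0 0 0 0 0 0 0 0 0 (l52) (t53) 0 (l55) (t60) (t63) (t65) (l66) (t69) (t70)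 (t71)) := by
  obtain ⟨it39, it44, it46, it47, it51, it53, it60, it63, it65, it69, it70, it71⟩ := inv_of_mem d hm
  obtain ⟨y, rfl⟩ := solve_mul (fne (f := f) hp37) l52
  have c : Cj f (E f 0 (l37) 0 0 0 0 0 0 0 0 0 0 0 (((f l37)) * y) (t53) 0 (l55) (t60) (t63) (t65) (l66) (t69) (t70) (t71)) (E f 0 (l37) 0 0 0 0 0 0 0 0 0 0 0 0 (t53) 0 (l55) (t60) (t63) (t65) (l66) (t69) (t70) (t71 + l55*(f y) + y*(f l55))) := cjS f (E_mem_G1 d (map_zero f) (map_zero f) (map_zero f) (map_zero f) (map_zero f) (map_zero f) (map_zero f) (map_zero f) (map_zero f) (map_zero f) (map_zero f) (map_zero f) 0 0 0 0 0 0 0 (y) 0 0 0 0) (st_LC_1_1_1_1_1_1_1_1_1_1_1 d.hff it53 it60 it63 it65 it69 it70 it71)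
  exact Res.of_cj f c (LC_1_1_1_1_1_1_1_1_1_1_1_1 d hp37 (c.mem f hm) (c.sq f hs))

theorem LC_1_1_1_1_1_1_1_1_1_1 {l37 l52 l55 l66 t51 t53 t60 t63 t65 t69 t70 t71 : K} (d : Dt f) (hp37 : l37 ≠ 0) (hm : E f 0 (l37) 0 0 0 0 0 0 0 0 0 0 (t51) (l52) (t53) 0 (l55) (t60) (t63) (t65) (l66) (t69) (t70) (t71) ∈ (sc f).G1) (hs : E f 0 (l37) 0 0 0 0 0 0 0 0 0 0 (t51) (l52) (t53) 0 (l55) (t60) (t63) (t65) (l66) (t69) (t70) (t71) * E f 0 (l37) 0 0 0 0 0 0 0 0 0 0 (t51) (l52) (t53) 0 (l55) (t60) (t63) (t65) (l66) (t69) (t70) (t71) = 1) : Res f (E f 0 (l37) 0 0 0 0 0 0 0 0 0 0 (t51) (l52) (t53) 0 (l55) (t60) (t63) (t65) (l66) (t69) (t70) (t71)) := by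
  obtain ⟨it39, it44, it46, it47, it51, it53, it60, it63, it65, it69, it70, it71⟩ := inv_of_mem d hm
  obtain ⟨y, rfl⟩ := solve_tr d hp37 it51
  have c : Cj f (E f 0 (l37) 0 0 0 0 0 0 0 0 0 0 ((l37) * f y + f (l37) * y) (l52) (t53) 0 (l55) (t60) (t63) (t65) (l66) (t69) (t70) (t71)) (E f 0 (l37) 0 0 0 0 0 0 0 0 0 0 0 (l52) (t53) 0 (l55) (t60) (t63) (t65) (l66 + t60*y) (t69) (t70) (t71 + l66*(f y) + y*(f l66) + t60*y*(f y))) := cjS f (E_mem_G1 d (map_zero f) (map_zero f) (map_zero f) (map_zero f) (map_zero f) (map_zero f) (map_zero f) (map_zero f) (map_zero f) (map_zero f) (map_zero f) (map_zero f) 0 0 0 0 0 0 (y) 0 0 0 0 0) (st_LC_1_1_1_1_1_1_1_1_1_1 d.hff it53 it60 it63 it65 it69 it70 it71)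
  exact Res.of_cj f c (LC_1_1_1_1_1_1_1_1_1_1_1 d hp37 (c.mem f hm) (c.sq f hs))

theorem LC_1_1_1_1_1_1_1_1_1 {l37 l48 l52 l55 l66 t51 t53 t60 t63 t65 t69 t70 t71 : K} (d : Dt f) (hp37 : l37 ≠ 0) (hm : E f 0 (l37) 0 0 0 0 0 0 0 0 (l48) 0 (t51) (l52) (t53) 0 (l55) (t60) (t63) (t65) (l66) (t69) (t70) (t71) ∈ (sc f).G1) (hs : E f 0 (l37) 0 0 0 0 0 0 0 0 (l48) 0 (t51) (l52) (t53) 0 (l55) (t60) (t63) (t65) (l66) (t69) (t70) (t71) * E f 0 (l37) 0 0 0 0 0 0 0 0 (l48) 0 (t51) (l52) (t53) 0 (l55) (t60) (t63) (t65) (l66) (t69) (t70) (t71) = 1) : Res f (E f 0 (l37) 0 0 0 0 0 0 0 0 (l48) 0 (t51) (l52) (t53) 0 (l55) (t60) (t63) (t65) (l66) (t69) (t70) (t71)) := by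
  obtain ⟨it39, it44, it46, it47, it51, it53, it60, it63, it65, it69, it70, it71⟩ := inv_of_mem d hm
  have h2 : (2 : K) = 0 := CharTwo.two_eq_zero
  have h3 : (l37) * f l48 + l48 * f (l37) = 0 := by
    have h := hs
    unfold E at h
    rw [W_mul, ← W_zero] at h
    obtain ⟨-, -, -, -, -, -, -, -, -, -, -, -, -, -, -, h51, -, -, -, -, -, -, -, -, -, -, -, -, -, -, -, -, -, -, -, -⟩ := W_inj h
    try simp only [map_zero] at h51
    linear_combination (-t51) * h2 + h51
  obtain ⟨w, hw, rfl⟩ := solve_sq hp37 d.hff h3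
  have c : Cj f (E f 0 (l37) 0 0 0 0 0 0 0 0 ((l37) * w) 0 (t51) (l52) (t53) 0 (l55) (t60) (t63) (t65) (l66) (t69) (t70) (t71)) (E f 0 (l37) 0 0 0 0 0 0 0 0 0 0 (t51 + l37*w*(f l37)) (l52) (t53) 0 (l55) (t60) (t63) (t65 + t60*w) (l66) (t69) (t70) (t71 + t69*w)) := cjS f (E_mem_G1 d (map_zero f) (map_zero f) (map_zero f) hw (map_zero f) (map_zero f) (map_zero f) (map_zero f) (map_zero f) (map_zero f) (map_zero f) (map_zero f) 0 0 0 0 0 0 0 0 0 0 0 0) (st_LC_1_1_1_1_1_1_1_1_1 d.hff it51 it53 it60 it63 it65 it69 it70 it71 hw)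
  exact Res.of_cj f c (LC_1_1_1_1_1_1_1_1_1_1 d hp37 (c.mem f hm) (c.sq f hs))

theorem LC_1_1_1_1_1_1_1_1 {l37 l48 l52 l54 l55 l66 t51 t53 t60 t63 t65 t69 t70 t71 : K} (d : Dt f) (hp37 : l37 ≠ 0) (hm : E f 0 (l37) 0 0 0 0 0 0 0 0 (l48) 0 (t51) (l52) (t53) (l54) (l55) (t60) (t63) (t65) (l66) (t69) (t70) (t71) ∈ (sc f).G1) (hs : E f 0 (l37) 0 0 0 0 0 0 0 0 (l48) 0 (t51) (l52) (t53) (l54) (l55) (t60) (t63) (t65) (l66) (t69) (t70) (t71) * E f 0 (l37) 0 0 0 0 0 0 0 0 (l48) 0 (t51) (l52) (t53) (l54) (l55) (t60) (t63) (t65) (l66) (t69) (t70) (t71) = 1) : Res f (E f 0 (l37) 0 0 0 0 0 0 0 0 (l48) 0 (t51) (l52) (t53) (l54) (l55) (t60) (t63) (t65) (l66) (t69) (t70) (t71)) := by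
  have h2 : (2 : K) = 0 := CharTwo.two_eq_zero
  have hz : l54 = 0 := by
    have h := hs
    unfold E at h
    rw [W_mul, ← W_zero] at h
    obtain ⟨-, -, -, -, -, -, -, -, -, -, -, -, -, -, -, -, -, -, -, h55, -, -, -, -, -, -, -, -, -, -, -, -, -, -, -, -⟩ := W_inj h
    try simp only [map_zero] at h55
    have key : l37*l54 = 0 := by linear_combination (-l55) * h2 + h55
    simpa [mul_eq_zero, map_eq_zero, pow_eq_zero_iff, hp37] using key
  subst hz
  exact LC_1_1_1_1_1_1_1_1_1 d hp37 hm hs

theorem LC_1_1_1_1_1_1_1 {l37 l48 l49 l52 l54 l55 l66 t51 t53 t60 t63 t65 t69 t70 t71 : K} (d : Dt f) (hp37 : l37 ≠ 0) (hm : E f 0 (l37) 0 0 0 0 0 0 0 0 (l48) (l49) (t51) (l52) (t53) (l54) (l55) (t60) (t63) (t65) (l66) (t69) (t70) (t71) ∈ (sc f).G1) (hs : E f 0 (l37) 0 0 0 0 0 0 0 0 (l48) (l49) (t51) (l52) (t53) (l54) (l55) (t60) (t63) (t65) (l66) (t69) (t70) (t71) * E f 0 (l37) 0 0 0 0 0 0 0 0 (l48) (l49) (t51) (l52) (t53) (l54) (l55) (t60) (t63) (t65) (l66) (t69) (t70) (t71) = 1) : Res f (E f 0 (l37) 0 0 0 0 0 0 0 0 (l48) (l49)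 (t51) (l52) (t53) (l54) (l55) (t60) (t63) (t65) (l66) (t69) (t70) (t71)) := by
  have h2 : (2 : K) = 0 := CharTwo.two_eq_zero
  have hz : l49 = 0 := by
    have h := hs
    unfold E at h
    rw [W_mul, ← W_zero] at h
    obtain ⟨-, -, -, -, -, -, -, -, -, -, -, -, -, -, -, -, h52, -, -, -, -, -, -, -, -, -, -, -, -, -, -, -, -, -, -, -⟩ := W_inj h
    try simp only [map_zero] at h52
    have key : l49*(f l37) = 0 := by linear_combination (-l52) * h2 + h52
    simpa [mul_eq_zero, map_eq_zero, pow_eq_zero_iff, hp37] using key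
  subst hz
  exact LC_1_1_1_1_1_1_1_1 d hp37 hm hs

theorem LC_1_1_1_1_1_1 {l37 l41 l48 l49 l52 l54 l55 l66 t51 t53 t60 t63 t65 t69 t70 t71 : K} (d : Dt f) (hp37 : l37 ≠ 0) (hm : E f 0 (l37) 0 0 0 (l41) 0 0 0 0 (l48) (l49) (t51) (l52) (t53) (l54) (l55) (t60) (t63) (t65) (l66) (t69) (t70) (t71) ∈ (sc f).G1) (hs : E f 0 (l37) 0 0 0 (l41) 0 0 0 0 (l48) (l49) (t51) (l52) (t53) (l54) (l55) (t60) (t63) (t65) (l66) (t69) (t70) (t71) * E f 0 (l37) 0 0 0 (l41) 0 0 0 0 (l48) (l49) (t51) (l52) (t53) (l54) (l55) (t60) (t63) (t65) (l66) (t69) (t70) (t71) = 1) : Res f (E f 0 (l37) 0 0 0 (l41) 0 0 0 0 (l48) (l49) (t51) (l52) (t53) (l54) (l55) (t60) (t63) (t65) (l66) (t69) (t70) (t71)) := by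
  have h2 : (2 : K) = 0 := CharTwo.two_eq_zero
  have hz : l41 = 0 := by
    have h := hs
    unfold E at h
    rw [W_mul, ← W_zero] at h
    obtain ⟨-, -, -, -, -, -, -, -, -, h45, -, -, -, -, -, -, -, -, -, -, -, -, -, -, -, -, -, -, -, -, -, -, -, -, -, -⟩ := W_inj h
    try simp only [map_zero] at h45
    have key : l41*(f l37) = 0 := by linear_combination (-l41*(f l37)) * h2 + h45
    simpa [mul_eq_zero, map_eq_zero, pow_eq_zero_iff, hp37] using key
  subst hz
  exact LC_1_1_1_1_1_1_1 d hp37 hm hs

theorem LC_1_1_1_1_1 {l37 l41 l45 l48 l49 l52 l54 l55 l66 t51 t53 t60 t63 t65 t69 t70 t71 : K} (d : Dt f) (hp37 : l37 ≠ 0) (hm : E f 0 (l37) 0 0 0 (l41) 0 (l45) 0 0 (l48) (l49) (t51) (l52) (t53) (l54) (l55) (t60) (t63) (t65) (l66) (t69) (t70) (t71) ∈ (sc f).G1) (hs : E f 0 (l37) 0 0 0 (l41) 0 (l45) 0 0 (l48) (l49) (t51) (l52) (t53) (l54) (l55) (t60) (t63) (t65) (l66) (t69) (t70) (t71) * E f 0 (l37) 0 0 0 (l41) 0 (l45) 0 0 (l48) (l49) (t51) (l52) (t53) (l54) (l55) (t60) (t63) (t65) (l66) (t69) (t70) (t71) = 1) : Res f (E f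 0 (l37) 0 0 0 (l41) 0 (l45) 0 0 (l48) (l49) (t51) (l52) (t53) (l54) (l55) (t60) (t63) (t65) (l66) (t69) (t70) (t71)) := by
  obtain ⟨it39, it44, it46, it47, it51, it53, it60, it63, it65, it69, it70, it71⟩ := inv_of_mem d hm
  obtain ⟨y, rfl⟩ := solve_mul (fne (f := f) hp37) l45
  have c : Cj f (E f 0 (l37) 0 0 0 (l41) 0 (((f l37)) * y) 0 0 (l48) (l49) (t51) (l52) (t53) (l54) (l55) (t60) (t63) (t65) (l66) (t69) (t70) (t71)) (E f 0 (l37) 0 0 0 (l41) 0 0 0 0 (l48) (l49) (t51) (l52) (t53) (l54 + y*(f l48)) (l55 + t51*y) (t60) (t63) (t65 + l49*(f y) + y*(f l49)) (l66 + y*(f l52)) (t69) (t70 + l55*(f y) + y*(f l55) + t51*y*(f y)) (t71 + l48*l52*(f y) + l49*t51*(f y) + t51*y*(f l49) + y*(f l48)*(f l52))) := cjS f (E_mem_G1 d (map_zero f) (map_zero f) (map_zero f) (map_zero f) (map_zero f) (map_zero f) (map_zero f) (map_zero f) (map_zero f) (map_zero f) (map_zero f) (map_zero f) 0 0 0 0 (y) 0 0 0 0 0 0 0) (st_LC_1_1_1_1_1 d.hff it51 it53 it60 it63 it65 it69 it70 it71)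
  exact Res.of_cj f c (LC_1_1_1_1_1_1 d hp37 (c.mem f hm) (c.sq f hs))

theorem LC_1_1_1_1 {l37 l41 l45 l48 l49 l52 l54 l55 l66 t44 t51 t53 t60 t63 t65 t69 t70 t71 : K} (d : Dt f) (hp37 : l37 ≠ 0) (hm : E f 0 (l37) 0 0 0 (l41) (t44) (l45) 0 0 (l48) (l49) (t51) (l52) (t53) (l54) (l55) (t60) (t63) (t65) (l66) (t69) (t70) (t71) ∈ (sc f).G1) (hs : E f 0 (l37) 0 0 0 (l41) (t44) (l45) 0 0 (l48) (l49) (t51) (l52) (t53) (l54) (l55) (t60) (t63) (t65) (l66) (t69) (t70) (t71) * E f 0 (l37) 0 0 0 (l41) (t44) (l45) 0 0 (l48) (l49) (t51) (l52) (t53) (l54) (l55) (t60) (t63) (t65) (l66) (t69) (t70) (t71) = 1) : Res f (E f 0 (l37) 0 0 0 (l41) (t44) (l45) 0 0 (l48) (l49) (t51) (l52) (t53) (l54) (l55) (t60) (t63) (t65) (l66) (t69) (t70) (t71)) := by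
  obtain ⟨it39, it44, it46, it47, it51, it53, it60, it63, it65, it69, it70, it71⟩ := inv_of_mem d hm
  obtain ⟨y, rfl⟩ := solve_tr d hp37 it44
  have c : Cj f (E f 0 (l37) 0 0 0 (l41) ((l37) * f y + f (l37) * y) (l45) 0 0 (l48) (l49) (t51) (l52) (t53) (l54) (l55) (t60) (t63) (t65) (l66) (t69) (t70) (t71)) (E f 0 (l37) 0 0 0 (l41) 0 (l45) 0 0 (l48) (l49) (t51) (l52) (t53 + l48*(f y) + y*(f l48)) (l54 + l49*(f y)) (l55 + l52*y) (t60) (t63) (t65) (l66 + t63*y) (t69) (t70 + l66*(f y) + y*(f l66) + t63*y*(f y)) (t71 + l49*(f l52)*(f y) + l52*y*(f l49))) := cjS f (E_mem_G1 d (map_zero f) (map_zero f) (map_zero f) (map_zero f) (map_zero f) (map_zero f) (map_zero f) (map_zero f) (map_zero f) (map_zero f) (map_zero f) (map_zero f) 0 0 0 (y) 0 0 0 0 0 0 0 0) (st_LC_1_1_1_1 d.hff it51 it53 it60 it63 it65 it69 it70 it71)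
  exact Res.of_cj f c (LC_1_1_1_1_1 d hp37 (c.mem f hm) (c.sq f hs))

theorem LC_1_1_1 {l37 l40 l41 l45 l48 l49 l52 l54 l55 l66 t44 t51 t53 t60 t63 t65 t69 t70 t71 : K} (d : Dt f) (hp37 : l37 ≠ 0) (hm : E f 0 (l37) 0 0 (l40) (l41) (t44) (l45) 0 0 (l48) (l49) (t51) (l52) (t53) (l54) (l55) (t60) (t63) (t65) (l66) (t69) (t70) (t71) ∈ (sc f).G1) (hs : E f 0 (l37) 0 0 (l40) (l41) (t44) (l45) 0 0 (l48) (l49) (t51) (l52) (t53) (l54) (l55) (t60) (t63) (t65) (l66) (t69) (t70) (t71) * E f 0 (l37) 0 0 (l40) (l41) (t44) (l45) 0 0 (l48) (l49) (t51) (l52) (t53) (l54) (l55) (t60) (t63) (t65) (l66) (t69) (t70) (t71) = 1) : Res f (E f 0 (l37) 0 0 (l40) (l41) (t44) (l45) 0 0 (l48) (l49) (t51) (l52) (t53) (l54) (l55) (t60) (t63) (t65) (l66) (t69) (t70) (t71)) := by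
  obtain ⟨it39, it44, it46, it47, it51, it53, it60, it63, it65, it69, it70, it71⟩ := inv_of_mem d hm
  have h2 : (2 : K) = 0 := CharTwo.two_eq_zero
  have h3 : (l37) * f l40 + l40 * f (l37) = 0 := by
    have h := hs
    unfold E at h
    rw [W_mul, ← W_zero] at h
    obtain ⟨-, -, -, -, -, -, -, -, h44, -, -, -, -, -, -, -, -, -, -, -, -, -, -, -, -, -, -, -, -, -, -, -, -, -, -, -⟩ := W_inj h
    try simp only [map_zero] at h44
    linear_combination (-t44 - l40*(f l37)) * h2 + h44
  obtain ⟨w, hw, rfl⟩ := solve_sq hp37 d.hff h3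
  have c : Cj f (E f 0 (l37) 0 0 ((l37) * w) (l41) (t44) (l45) 0 0 (l48) (l49) (t51) (l52) (t53) (l54) (l55) (t60) (t63) (t65) (l66) (t69) (t70) (t71)) (E f 0 (l37) 0 0 0 (l41) (t44 + l37*w*(f l37)) (l45) 0 0 (l48) (l49) (t51) (l52) (t53 + t51*w) (l54 + l52*w) (l55) (t60) (t63) (t65 + t63*w) (l66) (t69) (t70 + t69*w) (t71 + l52*w*(f l52))) := cjS f (E_mem_G1 d hw (map_zero f) (map_zero f) (map_zero f) (map_zero f) (map_zero f) (map_zero f) (map_zero f) (map_zero f) (map_zero f) (map_zero f) (map_zero f) 0 0 0 0 0 0 0 0 0 0 0 0) (st_LC_1_1_1 d.hff it44 it51 it53 it60 it63 it65 it69 it70 it71 hw)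
  exact Res.of_cj f c (LC_1_1_1_1 d hp37 (c.mem f hm) (c.sq f hs))

theorem LC_1_1 {l37 l38 l40 l41 l45 l48 l49 l52 l54 l55 l66 t44 t51 t53 t60 t63 t65 t69 t70 t71 : K} (d : Dt f) (hp37 : l37 ≠ 0) (hm : E f 0 (l37) (l38) 0 (l40) (l41) (t44) (l45) 0 0 (l48) (l49) (t51) (l52) (t53) (l54) (l55) (t60) (t63) (t65) (l66) (t69) (t70) (t71) ∈ (sc f).G1) (hs : E f 0 (l37) (l38) 0 (l40) (l41) (t44) (l45) 0 0 (l48) (l49) (t51) (l52) (t53) (l54) (l55) (t60) (t63) (t65) (l66) (t69) (t70) (t71) * E f 0 (l37) (l38) 0 (l40) (l41) (t44) (l45) 0 0 (l48) (l49) (t51) (l52) (t53) (l54) (l55) (t60) (t63) (t65) (l66) (t69) (t70) (t71) = 1) : Res f (E f 0 (l37) (l38) 0 (l40) (l41) (t44) (l45) 0 0 (l48) (l49) (t51) (l52) (t53) (l54) (l55) (t60) (t63) (t65) (l66) (t69) (t70) (t71)) := by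
  obtain ⟨it39, it44, it46, it47, it51, it53, it60, it63, it65, it69, it70, it71⟩ := inv_of_mem d hm
  obtain ⟨y, rfl⟩ := solve_mul hp37 l38
  have c : Cj f (E f 0 (l37) ((l37) * y) 0 (l40) (l41) (t44) (l45) 0 0 (l48) (l49) (t51) (l52) (t53) (l54) (l55) (t60) (t63) (t65) (l66) (t69) (t70) (t71)) (E f 0 (l37) 0 0 (l40) (l41 + l40*y) (t44) (l45 + t44*y) 0 0 (l48) (l49 + l48*y) (t51) (l52 + t51*y) (t53) (l54 + t53*y) (l55) (t60 + l45*(f y) + y*(f l45) + t44*y*(f y)) (t63 + l52*(f y) + y*(f l52) + t51*y*(f y)) (t65 + l54*(f y) + y*(f l54) + t53*y*(f y)) (l66 + l55*(f y) + l45*l48*(f y) + l48*y*(f l45) + l48*t44*y*(f y)) (t69 + l45*t51*(f y) + t51*y*(f l45) + t44*t51*y*(f y)) (t70 + l45*t53*(f y) + t53*y*(f l45) + t44*t53*y*(f y)) (t71 + l52*t53*(f y) + t53*y*(f l52) + l45*l48*(f l48)*(f y) + l48*y*(f l45)*(f l48) + t51*t53*y*(f y) + l48*t44*y*(f l48)*(f y))) := cjS f (E_mem_G1 d (map_zero f) (map_zero f) (map_zero f) (map_zero f) (map_zero f) (map_zero f) (map_zero f) (map_zero f) (map_zero f) (map_zero f) (map_zero f) (map_zero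 f) (y) 0 0 0 0 0 0 0 0 0 0 0) (st_LC_1_1 d.hff it44 it51 it53 it60 it63 it65 it69 it70 it71)
  exact Res.of_cj f c (LC_1_1_1 d hp37 (c.mem f hm) (c.sq f hs))

theorem LC_1 {l37 l38 l40 l41 l45 l48 l49 l52 l54 l55 l66 t44 t47 t51 t53 t60 t63 t65 t69 t70 t71 : K} (d : Dt f) (hp37 : l37 ≠ 0) (hm : E f 0 (l37) (l38) 0 (l40) (l41) (t44) (l45) 0 (t47) (l48) (l49) (t51) (l52) (t53) (l54) (l55) (t60) (t63) (t65) (l66) (t69) (t70) (t71) ∈ (sc f).G1) (hs : E f 0 (l37) (l38) 0 (l40) (l41) (t44) (l45) 0 (t47) (l48) (l49) (t51) (l52) (t53) (l54) (l55) (t60) (t63) (t65) (l66) (t69) (t70) (t71) * E f 0 (l37) (l38) 0 (l40) (l41) (t44) (l45) 0 (t47) (l48) (l49) (t51) (l52) (t53) (l54) (l55) (t60) (t63) (t65) (l66) (t69) (t70) (t71) = 1) : Res f (E f 0 (l37) (l38) 0 (l40) (l41) (t44) (l45) 0 (t47) (l48) (l49) (t51) (l52) (t53) (l54) (l55) (t60) (t63) (t65) (l66) (t69) (t70) (t71)) := by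
  have h2 : (2 : K) = 0 := CharTwo.two_eq_zero
  have hz : t47 = 0 := by
    have h := hs
    unfold E at h
    rw [W_mul, ← W_zero] at h
    obtain ⟨-, -, -, -, -, -, -, -, -, -, -, -, h48, -, -, -, -, -, -, -, -, -, -, -, -, -, -, -, -, -, -, -, -, -, -, -⟩ := W_inj h
    try simp only [map_zero] at h48
    have key : l37*t47 = 0 := by linear_combination (-l48) * h2 + h48
    simpa [mul_eq_zero, map_eq_zero, pow_eq_zero_iff, hp37] using key
  subst hz
  exact LC_1_1 d hp37 hm hs

theorem LC {l36 l37 l38 l40 l41 l45 l48 l49 l52 l54 l55 l66 t44 t47 t51 t53 t60 t63 t65 t69 t70 t71 : K} (d : Dt f) (hp37 : l37 ≠ 0) (hm : E f (l36) (l37) (l38) 0 (l40) (l41) (t44) (l45) 0 (t47) (l48) (l49) (t51) (l52) (t53) (l54) (l55) (t60) (t63) (t65) (l66) (t69) (t70) (t71) ∈ (sc f).G1) (hs : E f (l36) (l37) (l38) 0 (l40) (l41) (t44) (l45) 0 (t47) (l48) (l49) (t51) (l52) (t53) (l54) (l55) (t60) (t63) (t65) (l66) (t69) (t70) (t71) * E f (l36) (l37) (l38) 0 (l40) (l41) (t44) (l45) 0 (t47) (l48) (l49) (t51) (l52) (t53) (l54) (l55) (t60) (t63)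 (t65) (l66) (t69) (t70) (t71) = 1) : Res f (E f (l36) (l37) (l38) 0 (l40) (l41) (t44) (l45) 0 (t47) (l48) (l49) (t51) (l52) (t53) (l54) (l55) (t60) (t63) (t65) (l66) (t69) (t70) (t71)) := by
  have h2 : (2 : K) = 0 := CharTwo.two_eq_zero
  have hz : l36 = 0 := by
    have h := hs
    unfold E at h
    rw [W_mul, ← W_zero] at h
    obtain ⟨-, -, h38, -, -, -, -, -, -, -, -, -, -, -, -, -, -, -, -, -, -, -, -, -, -, -, -, -, -, -, -, -, -, -, -, -⟩ := W_inj h
    try simp only [map_zero] at h38
    have key : l36*l37 = 0 := by linear_combination (-l38) * h2 + h38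
    simpa [mul_eq_zero, map_eq_zero, pow_eq_zero_iff, hp37] using key
  subst hz
  exact LC_1 d hp37 hm hs

end Cfsg.Agent.Lib.E6Inv50
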