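import Cfsg.Agent.Lib.E6Inv50J

/-!
# The involutions of `²E₆(q)`, `q` even: reduction chains
-/

set_option autoImplicit false
set_option linter.unusedSectionVars false
set_option linter.unusedVariables false
set_option linter.unusedSimpArgs false
set_option maxRecDepth 100000
set_option maxHeartbeats 4000000
set_option linter.unusedTactic false
set_option linter.unreachableTactic false

namespace Cfsg.Agent.Lib.E6Inv50

open Cfsg Cfsg.Lie Cfsg.Agent.Lib.Chev Cfsg.Agent.Lib.Chev.TwE6

variable {K : Type*} [Field K] [CharP K 2] [Fintype K] {f : K ≃+* K}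

theorem st_LD {l36 l40 l41 l45 l48 l49 l52 l54 l55 l66 t44 t47 t51 t53 t60 t63 t65 t69 t70 t71 y : K} (hff : ∀ t, f (f t) = t) (it44 : f t44 = t44) (it47 : f t47 = t47) (it51 : f t51 = t51) (it53 : f t53 = t53) (it60 : f t60 = t60) (it63 : f t63 = t63) (it65 : f t65 = t65) (it69 : f t69 = t69) (it70 : f t70 = t70) (it71 : f t71 = t71) :
    E f 0 (y) 0 0 0 0 0 0 0 0 0 0 0 0 0 0 0 0 0 0 0 0 0 0 * E f (l36) 0 ((l36) * y) 0 (l40) (l41) (t44) (l45) 0 (t47) (l48) (l49) (t51) (l52) (t53) (l54) (l55) (t60) (t63) (t65) (l66) (t69) (t70) (t71) = E f (l36) 0 0 0 (l40) (l41) (t44 + l40*(f y) + y*(f l40)) (l45 + l41*(f y)) 0 (t47) (l48 + t47*y) (l49) (t51 + l48*(f y) + y*(f l48) + t47*y*(f y)) (l52 + l49*(f y)) (t53) (l54) (l55 + l54*y) (t60) (t63) (t65) (l66 + t65*y) (t69 + l66*(f y) + y*(f l66) + t65*y*(f y)) (t70) (t71) * E f 0 (y) 0 0 0 0 0 0 0 0 0 0 0 0 0 0 0 0 0 0 0 0 0 0 := by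
  have h2 : (2 : K) = 0 := CharTwo.two_eq_zero
  unfold E
  rw [W_mul, W_mul]
  apply W_congr
  · (try simp only [map_add, map_mul, map_pow, map_zero, map_one, hff, it44, it47, it51, it53, it60, it63, it65, it69, it70, it71]) <;> linear_combination (0 : K) * h2
  · (try simp only [map_add, map_mul, map_pow, map_zero, map_one, hff, it44, it47, it51, it53, it60, it63, it65, it69, it70, it71]) <;> linear_combination (0 : K) * h2
  · (try simp only [map_add, map_mul, map_pow, map_zero, map_one, hff, it44, it47, it51, it53, it60, it63, it65, it69, it70, it71]) <;> linear_combination (l36*y) * h2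
  · (try simp only [map_add, map_mul, map_pow, map_zero, map_one, hff, it44, it47, it51, it53, it60, it63, it65, it69, it70, it71]) <;> linear_combination (0 : K) * h2
  · (try simp only [map_add, map_mul, map_pow, map_zero, map_one, hff, it44, it47, it51, it53, it60, it63, it65, it69, it70, it71]) <;> linear_combination (0 : K) * h2
  · (try simp only [map_add, map_mul, map_pow, map_zero, map_one, hff, it44, it47, it51, it53, it60, it63, it65, it69, it70, it71]) <;> linear_combination (0 : K) * h2
  · (try simp only [map_add, map_mul, map_pow, map_zero, map_one, hff, it44, it47, it51, it53, it60, it63, it65, it69, it70, it71]) <;> linear_combination (0 : K) * h2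
  · (try simp only [map_add, map_mul, map_pow, map_zero, map_one, hff, it44, it47, it51, it53, it60, it63, it65, it69, it70, it71]) <;> linear_combination (0 : K) * h2
  · (try simp only [map_add, map_mul, map_pow, map_zero, map_one, hff, it44, it47, it51, it53, it60, it63, it65, it69, it70, it71]) <;> linear_combination (-y*(f l40)) * h2
  · (try simp only [map_add, map_mul, map_pow, map_zero, map_one, hff, it44, it47, it51, it53, it60, it63, it65, it69, it70, it71]) <;> linear_combination (0 : K) * h2
  · (try simp only [map_add, map_mul, map_pow, map_zero, map_one, hff, it44, it47, it51, it53, it60, it63, it65, it69, it70, it71]) <;> linear_combination (0 : K) * h2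
  · (try simp only [map_add, map_mul, map_pow, map_zero, map_one, hff, it44, it47, it51, it53, it60, it63, it65, it69, it70, it71]) <;> linear_combination (0 : K) * h2
  · (try simp only [map_add, map_mul, map_pow, map_zero, map_one, hff, it44, it47, it51, it53, it60, it63, it65, it69, it70, it71]) <;> linear_combination (-t47*y) * h2
  · (try simp only [map_add, map_mul, map_pow, map_zero, map_one, hff, it44, it47, it51, it53, it60, it63, it65, it69, it70, it71]) <;> linear_combination (0 : K) * h2
  · (try simp only [map_add, map_mul, map_pow, map_zero, map_one, hff, it44, it47, it51, it53, it60, it63, it65, it69, it70, it71]) <;> linear_combination (-t47*(f y)) * h2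
  · (try simp only [map_add, map_mul, map_pow, map_zero, map_one, hff, it44, it47, it51, it53, it60, it63, it65, it69, it70, it71]) <;> linear_combination (-l48*(f y) - y*(f l48) - 2*t47*y*(f y)) * h2
  · (try simp only [map_add, map_mul, map_pow, map_zero, map_one, hff, it44, it47, it51, it53, it60, it63, it65, it69, it70, it71]) <;> linear_combination (-l49*(f y)) * h2
  · (try simp only [map_add, map_mul, map_pow, map_zero, map_one, hff, it44, it47, it51, it53, it60, it63, it65, it69, it70, it71]) <;> linear_combination (0 : K) * h2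
  · (try simp only [map_add, map_mul, map_pow, map_zero, map_one, hff, it44, it47, it51, it53, it60, it63, it65, it69, it70, it71]) <;> linear_combination (0 : K) * h2
  · (try simp only [map_add, map_mul, map_pow, map_zero, map_one, hff, it44, it47, it51, it53, it60, it63, it65, it69, it70, it71]) <;> linear_combination (-l54*y) * h2
  · (try simp only [map_add, map_mul, map_pow, map_zero, map_one, hff, it44, it47, it51, it53, it60, it63, it65, it69, it70, it71]) <;> linear_combination (0 : K) * h2
  · (try simp only [map_add, map_mul, map_pow, map_zero, map_one, hff, it44, it47, it51, it53, it60, it63, it65, it69, it70, it71]) <;> linear_combination (0 : K) * h2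
  · (try simp only [map_add, map_mul, map_pow, map_zero, map_one, hff, it44, it47, it51, it53, it60, it63, it65, it69, it70, it71]) <;> linear_combination (0 : K) * h2
  · (try simp only [map_add, map_mul, map_pow, map_zero, map_one, hff, it44, it47, it51, it53, it60, it63, it65, it69, it70, it71]) <;> linear_combination (-y*(f l41) - y*(f l36)*(f l40)) * h2
  · (try simp only [map_add, map_mul, map_pow, map_zero, map_one, hff, it44, it47, it51, it53, it60, it63, it65, it69, it70, it71]) <;> linear_combination (0 : K) * h2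
  · (try simp only [map_add, map_mul, map_pow, map_zero, map_one, hff, it44, it47, it51, it53, it60, it63, it65, it69, it70, it71]) <;> linear_combination (0 : K) * h2
  · (try simp only [map_add, map_mul, map_pow, map_zero, map_one, hff, it44, it47, it51, it53, it60, it63, it65, it69, it70, it71]) <;> linear_combination (-y*(f l49) - y*(f l36)*(f l48) - t47*y*(f l36)*(f y)) * h2
  · (try simp only [map_add, map_mul, map_pow, map_zero, map_one, hff, it44, it47, it51, it53, it60, it63, it65, it69, it70, it71]) <;> linear_combination (0 : K) * h2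
  · (try simp only [map_add, map_mul, map_pow, map_zero, map_one, hff, it44, it47, it51, it53, it60, it63, it65, it69, it70, it71]) <;> linear_combination (-t47*y*(f l41) - t47*y*(f l36)*(f l40)) * h2
  · (try simp only [map_add, map_mul, map_pow, map_zero, map_one, hff, it44, it47, it51, it53, it60, it63, it65, it69, it70, it71]) <;> linear_combination (0 : K) * h2
  · (try simp only [map_add, map_mul, map_pow, map_zero, map_one, hff, it44, it47, it51, it53, it60, it63, it65, it69, it70, it71]) <;> linear_combination (-t65*y - l49*y*(f l41) - l54*y*(f l36) - l45*t47*y*(f l36) - l49*y*(f l36)*(f l40) - l41*t47*y*(f l36)*(f y)) * h2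
  · (try simp only [map_add, map_mul, map_pow, map_zero, map_one, hff, it44, it47, it51, it53, it60, it63, it65, it69, it70, it71]) <;> linear_combination (-(f l54)*(f y) - l48*(f l41)*(f y) - t47*(f l45)*(f y) - y*(f l41)*(f l48) - l48*(f l36)*(f l40)*(f y) - t44*t47*(f l36)*(f y) - 2*t47*y*(f l41)*(f y) - y*(f l36)*(f l40)*(f l48) - l40*t47*(f l36)*(f y)^2 - 2*t47*y*(f l36)*(f l40)*(f y)) * h2
  · (try simp only [map_add, map_mul, map_pow, map_zero, map_one, hff, it44, it47, it51, it53, it60, it63, it65, it69, it70, it71]) <;> linear_combination (-t65*(f y) - l49*(f l41)*(f y) - l45*t47*(f l36)*(f y) - l49*(f l36)*(f l40)*(f y) - l41*t47*(f l36)*(f y)^2) * h2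
  · (try simp only [map_add, map_mul, map_pow, map_zero, map_one, hff, it44, it47, it51, it53, it60, it63, it65, it69, it70, it71]) <;> linear_combination (-l66*(f y) - y*(f l66) - l49*(f l45)*(f y) - l52*y*(f l41) - 2*t65*y*(f y) - l45*l48*(f l36)*(f y) - l45*y*(f l36)*(f l48) - l49*t44*(f l36)*(f y) - 2*l49*y*(f l41)*(f y) - l52*y*(f l36)*(f l40) - l54*y*(f l36)*(f y) - l40*l49*(f l36)*(f y)^2 - l41*l48*(f l36)*(f y)^2 - l41*y*(f l36)*(f l48)*(f y) - 2*l45*t47*y*(f l36)*(f y) - 2*l49*y*(f l36)*(f l40)*(f y) - 2*l41*t47*y*(f l36)*(f y)^2) * h2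
  · (try simp only [map_add, map_mul, map_pow, map_zero, map_one, hff, it44, it47, it51, it53, it60, it63, it65, it69, it70, it71]) <;> linear_combination (-l54*y*(f l41) - l54*y*(f l36)*(f l40)) * h2
  · (try simp only [map_add, map_mul, map_pow, map_zero, map_one, hff, it44, it47, it51, it53, it60, it63, it65, it69, it70, it71]) <;> linear_combination (-l54*y*(f l49) - l48*l49*(f l41)*(f y) - l49*t47*(f l45)*(f y) - l49*y*(f l41)*(f l48) - l52*t47*y*(f l41) - l54*y*(f l36)*(f l48) - l45*l48*t47*(f l36)*(f y) - l45*t47*y*(f l36)*(f l48) - l48*l49*(f l36)*(f l40)*(f y) - l49*t44*t47*(f l36)*(f y) - 2*l49*t47*y*(f l41)*(f y) - l49*y*(f l36)*(f l40)*(f l48) - l52*t47*y*(f l36)*(f l40) - l54*t47*y*(f l36)*(f y) - l40*l49*t47*(f l36)*(f y)^2 - l41*l48*t47*(f l36)*(f y)^2 - l41*t47*y*(f l36)*(f l48)*(f y) - l45*t47^2*y*(f l36)*(f y) - 2*l49*t47*y*(f l36)*(f l40)*(f y) - l41*t47^2*y*(f l36)*(f y)^2) * h2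

theorem st_LD_1 {l36 l40 l45 l48 l49 l52 l54 l55 l66 t44 t47 t51 t53 t60 t63 t65 t69 t70 t71 y : K} (hff : ∀ t, f (f t) = t) (it44 : f t44 = t44) (it47 : f t47 = t47) (it51 : f t51 = t51) (it53 : f t53 = t53) (it60 : f t60 = t60) (it63 : f t63 = t63) (it65 : f t65 = t65) (it69 : f t69 = t69) (it70 : f t70 = t70) (it71 : f t71 = t71) :
    E f 0 0 0 0 (y) 0 0 0 0 0 0 0 0 0 0 0 0 0 0 0 0 0 0 0 * E f (l36) 0 0 0 (l40) ((l36) * y) (t44) (l45) 0 (t47) (l48) (l49) (t51) (l52) (t53) (l54) (l55) (t60) (t63) (t65) (l66) (t69) (t70) (t71) = E f (l36) 0 0 0 (l40) 0 (t44) (l45) 0 (t47) (l48) (l49) (t51) (l52) (t53 + l48*(f y) + y*(f l48)) (l54 + l49*(f y)) (l55 + l52*y) (t60) (t63) (t65) (l66 + t63*y) (t69) (t70 + l66*(f y) + y*(f l66) + t63*y*(f y)) (t71 + l49*(f l52)*(f y) + l52*y*(f l49)) * E f 0 0 0 0 (y) 0 0 0 0 0 0 0 0 0 0 0 0 0 0 0 0 0 0 0 := by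
  have h2 : (2 : K) = 0 := CharTwo.two_eq_zero
  unfold E
  rw [W_mul, W_mul]
  apply W_congr
  · (try simp only [map_add, map_mul, map_pow, map_zero, map_one, hff, it44, it47, it51, it53, it60, it63, it65, it69, it70, it71]) <;> linear_combination (0 : K) * h2
  · (try simp only [map_add, map_mul, map_pow, map_zero, map_one, hff, it44, it47, it51, it53, it60, it63, it65, it69, it70, it71]) <;> linear_combination (0 : K) * h2
  · (try simp only [map_add, map_mul, map_pow, map_zero, map_one, hff, it44, it47, it51, it53, it60, it63, it65, it69, it70, it71]) <;> linear_combination (0 : K) * h2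
  · (try simp only [map_add, map_mul, map_pow, map_zero, map_one, hff, it44, it47, it51, it53, it60, it63, it65, it69, it70, it71]) <;> linear_combination (0 : K) * h2
  · (try simp only [map_add, map_mul, map_pow, map_zero, map_one, hff, it44, it47, it51, it53, it60, it63, it65, it69, it70, it71]) <;> linear_combination (0 : K) * h2
  · (try simp only [map_add, map_mul, map_pow, map_zero, map_one, hff, it44, it47, it51, it53, it60, it63, it65, it69, it70, it71]) <;> linear_combination (l36*y) * h2
  · (try simp only [map_add, map_mul, map_pow, map_zero, map_one, hff, it44, it47, it51, it53, it60, it63, it65, it69, it70, it71]) <;> linear_combination (0 : K) * h2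
  · (try simp only [map_add, map_mul, map_pow, map_zero, map_one, hff, it44, it47, it51, it53, it60, it63, it65, it69, it70, it71]) <;> linear_combination (0 : K) * h2
  · (try simp only [map_add, map_mul, map_pow, map_zero, map_one, hff, it44, it47, it51, it53, it60, it63, it65, it69, it70, it71]) <;> linear_combination (0 : K) * h2
  · (try simp only [map_add, map_mul, map_pow, map_zero, map_one, hff, it44, it47, it51, it53, it60, it63, it65, it69, it70, it71]) <;> linear_combination (0 : K) * h2
  · (try simp only [map_add, map_mul, map_pow, map_zero, map_one, hff, it44, it47, it51, it53, it60, it63, it65, it69, it70, it71]) <;> linear_combination (0 : K) * h2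
  · (try simp only [map_add, map_mul, map_pow, map_zero, map_one, hff, it44, it47, it51, it53, it60, it63, it65, it69, it70, it71]) <;> linear_combination (0 : K) * h2
  · (try simp only [map_add, map_mul, map_pow, map_zero, map_one, hff, it44, it47, it51, it53, it60, it63, it65, it69, it70, it71]) <;> linear_combination (0 : K) * h2
  · (try simp only [map_add, map_mul, map_pow, map_zero, map_one, hff, it44, it47, it51, it53, it60, it63, it65, it69, it70, it71]) <;> linear_combination (0 : K) * h2
  · (try simp only [map_add, map_mul, map_pow, map_zero, map_one, hff, it44, it47, it51, it53, it60, it63, it65, it69, it70, it71]) <;> linear_combination (0 : K) * h2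
  · (try simp only [map_add, map_mul, map_pow, map_zero, map_one, hff, it44, it47, it51, it53, it60, it63, it65, it69, it70, it71]) <;> linear_combination (0 : K) * h2
  · (try simp only [map_add, map_mul, map_pow, map_zero, map_one, hff, it44, it47, it51, it53, it60, it63, it65, it69, it70, it71]) <;> linear_combination (0 : K) * h2
  · (try simp only [map_add, map_mul, map_pow, map_zero, map_one, hff, it44, it47, it51, it53, it60, it63, it65, it69, it70, it71]) <;> linear_combination (-l48*(f y) - y*(f l48)) * h2
  · (try simp only [map_add, map_mul, map_pow, map_zero, map_one, hff, it44, it47, it51, it53, it60, it63, it65, it69, it70, it71]) <;> linear_combination (-l49*(f y)) * h2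
  · (try simp only [map_add, map_mul, map_pow, map_zero, map_one, hff, it44, it47, it51, it53, it60, it63, it65, it69, it70, it71]) <;> linear_combination (-l52*y) * h2
  · (try simp only [map_add, map_mul, map_pow, map_zero, map_one, hff, it44, it47, it51, it53, it60, it63, it65, it69, it70, it71]) <;> linear_combination (0 : K) * h2
  · (try simp only [map_add, map_mul, map_pow, map_zero, map_one, hff, it44, it47, it51, it53, it60, it63, it65, it69, it70, it71]) <;> linear_combination (0 : K) * h2
  · (try simp only [map_add, map_mul, map_pow, map_zero, map_one, hff, it44, it47, it51, it53, it60, it63, it65, it69, it70, it71]) <;> linear_combination (0 : K) * h2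
  · (try simp only [map_add, map_mul, map_pow, map_zero, map_one, hff, it44, it47, it51, it53, it60, it63, it65, it69, it70, it71]) <;> linear_combination (0 : K) * h2
  · (try simp only [map_add, map_mul, map_pow, map_zero, map_one, hff, it44, it47, it51, it53, it60, it63, it65, it69, it70, it71]) <;> linear_combination (0 : K) * h2
  · (try simp only [map_add, map_mul, map_pow, map_zero, map_one, hff, it44, it47, it51, it53, it60, it63, it65, it69, it70, it71]) <;> linear_combination (0 : K) * h2
  · (try simp only [map_add, map_mul, map_pow, map_zero, map_one, hff, it44, it47, it51, it53, it60, it63, it65, it69, it70, it71]) <;> linear_combination (0 : K) * h2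
  · (try simp only [map_add, map_mul, map_pow, map_zero, map_one, hff, it44, it47, it51, it53, it60, it63, it65, it69, it70, it71]) <;> linear_combination (0 : K) * h2
  · (try simp only [map_add, map_mul, map_pow, map_zero, map_one, hff, it44, it47, it51, it53, it60, it63, it65, it69, it70, it71]) <;> linear_combination (-y*(f l49) - y*(f l36)*(f l48)) * h2
  · (try simp only [map_add, map_mul, map_pow, map_zero, map_one, hff, it44, it47, it51, it53, it60, it63, it65, it69, it70, it71]) <;> linear_combination (0 : K) * h2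
  · (try simp only [map_add, map_mul, map_pow, map_zero, map_one, hff, it44, it47, it51, it53, it60, it63, it65, it69, it70, it71]) <;> linear_combination (-t63*y - l52*y*(f l36)) * h2
  · (try simp only [map_add, map_mul, map_pow, map_zero, map_one, hff, it44, it47, it51, it53, it60, it63, it65, it69, it70, it71]) <;> linear_combination (-(f l52)*(f y)) * h2
  · (try simp only [map_add, map_mul, map_pow, map_zero, map_one, hff, it44, it47, it51, it53, it60, it63, it65, it69, it70, it71]) <;> linear_combination (-t63*(f y)) * h2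
  · (try simp only [map_add, map_mul, map_pow, map_zero, map_one, hff, it44, it47, it51, it53, it60, it63, it65, it69, it70, it71]) <;> linear_combination (0 : K) * h2
  · (try simp only [map_add, map_mul, map_pow, map_zero, map_one, hff, it44, it47, it51, it53, it60, it63, it65, it69, it70, it71]) <;> linear_combination (-l66*(f y) - y*(f l66) - l49*(f l45)*(f y) - 2*t63*y*(f y) - l45*l48*(f l36)*(f y) - l45*y*(f l36)*(f l48) - l49*t44*(f l36)*(f y) - l52*y*(f l36)*(f l40) - l52*y*(f l36)*(f y)) * h2
  · (try simp only [map_add, map_mul, map_pow, map_zero, map_one, hff, it44, it47, it51, it53, it60, it63, it65, it69, it70, it71]) <;> linear_combination (-l49*(f l52)*(f y) - l52*y*(f l49) - l52*y*(f l36)*(f l48)) * h2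

theorem st_LD_1_1_1_1_1_1 {l36 l49 l52 l54 l55 l66 t47 t53 t60 t63 t65 t69 t70 t71 w : K} (hff : ∀ t, f (f t) = t) (it47 : f t47 = t47) (it53 : f t53 = t53) (it60 : f t60 = t60) (it63 : f t63 = t63) (it65 : f t65 = t65) (it69 : f t69 = t69) (it70 : f t70 = t70) (it71 : f t71 = t71) (iw : f w = w) :
    E f 0 0 0 0 0 0 (w) 0 0 0 0 0 0 0 0 0 0 0 0 0 0 0 0 0 * E f (l36) 0 0 0 0 0 0 ((l36) * w) 0 (t47) 0 (l49) 0 (l52) (t53) (l54) (l55) (t60) (t63) (t65) (l66) (t69) (t70) (t71) = E f (l36) 0 0 0 0 0 0 0 0 (t47) 0 (l49) 0 (l52) (t53 + t47*w) (l54) (l55 + l49*w) (t60 + l36*w*(f l36)) (t63) (t65 + l36*t47*w*(f l36)) (l66) (t69 + t63*w) (t70 + t65*w + l36*t53*w*(f l36) + l36*t47*w^2*(f l36)) (t71 + l49*w*(f l49)) * E f 0 0 0 0 0 0 (w) 0 0 0 0 0 0 0 0 0 0 0 0 0 0 0 0 0 := by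
  have h2 : (2 : K) = 0 := CharTwo.two_eq_zero
  unfold E
  rw [W_mul, W_mul]
  apply W_congr
  · (try simp only [map_add, map_mul, map_pow, map_zero, map_one, hff, it47, it53, it60, it63, it65, it69, it70, it71, iw]) <;> linear_combination (0 : K) * h2
  · (try simp only [map_add, map_mul, map_pow, map_zero, map_one, hff, it47, it53, it60, it63, it65, it69, it70, it71, iw]) <;> linear_combination (0 : K) * h2
  · (try simp only [map_add, map_mul, map_pow, map_zero, map_one, hff, it47, it53, it60, it63, it65, it69, it70, it71, iw]) <;> linear_combination (0 : K) * h2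
  · (try simp only [map_add, map_mul, map_pow, map_zero, map_one, hff, it47, it53, it60, it63, it65, it69, it70, it71, iw]) <;> linear_combination (0 : K) * h2
  · (try simp only [map_add, map_mul, map_pow, map_zero, map_one, hff, it47, it53, it60, it63, it65, it69, it70, it71, iw]) <;> linear_combination (0 : K) * h2
  · (try simp only [map_add, map_mul, map_pow, map_zero, map_one, hff, it47, it53, it60, it63, it65, it69, it70, it71, iw]) <;> linear_combination (0 : K) * h2
  · (try simp only [map_add, map_mul, map_pow, map_zero, map_one, hff, it47, it53, it60, it63, it65, it69, it70, it71, iw]) <;> linear_combination (0 : K) * h2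
  · (try simp only [map_add, map_mul, map_pow, map_zero, map_one, hff, it47, it53, it60, it63, it65, it69, it70, it71, iw]) <;> linear_combination (0 : K) * h2
  · (try simp only [map_add, map_mul, map_pow, map_zero, map_one, hff, it47, it53, it60, it63, it65, it69, it70, it71, iw]) <;> linear_combination (0 : K) * h2
  · (try simp only [map_add, map_mul, map_pow, map_zero, map_one, hff, it47, it53, it60, it63, it65, it69, it70, it71, iw]) <;> linear_combination (l36*w) * h2
  · (try simp only [map_add, map_mul, map_pow, map_zero, map_one, hff, it47, it53, it60, it63, it65, it69, it70, it71, iw]) <;> linear_combination (0 : K) * h2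
  · (try simp only [map_add, map_mul, map_pow, map_zero, map_one, hff, it47, it53, it60, it63, it65, it69, it70, it71, iw]) <;> linear_combination (0 : K) * h2
  · (try simp only [map_add, map_mul, map_pow, map_zero, map_one, hff, it47, it53, it60, it63, it65, it69, it70, it71, iw]) <;> linear_combination (0 : K) * h2
  · (try simp only [map_add, map_mul, map_pow, map_zero, map_one, hff, it47, it53, it60, it63, it65, it69, it70, it71, iw]) <;> linear_combination (0 : K) * h2
  · (try simp only [map_add, map_mul, map_pow, map_zero, map_one, hff, it47, it53, it60, it63, it65, it69, it70, it71, iw]) <;> linear_combination (0 : K) * h2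
  · (try simp only [map_add, map_mul, map_pow, map_zero, map_one, hff, it47, it53, it60, it63, it65, it69, it70, it71, iw]) <;> linear_combination (0 : K) * h2
  · (try simp only [map_add, map_mul, map_pow, map_zero, map_one, hff, it47, it53, it60, it63, it65, it69, it70, it71, iw]) <;> linear_combination (0 : K) * h2
  · (try simp only [map_add, map_mul, map_pow, map_zero, map_one, hff, it47, it53, it60, it63, it65, it69, it70, it71, iw]) <;> linear_combination (-t47*w) * h2
  · (try simp only [map_add, map_mul, map_pow, map_zero, map_one, hff, it47, it53, it60, it63, it65, it69, it70, it71, iw]) <;> linear_combination (0 : K) * h2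
  · (try simp only [map_add, map_mul, map_pow, map_zero, map_one, hff, it47, it53, it60, it63, it65, it69, it70, it71, iw]) <;> linear_combination (-l49*w) * h2
  · (try simp only [map_add, map_mul, map_pow, map_zero, map_one, hff, it47, it53, it60, it63, it65, it69, it70, it71, iw]) <;> linear_combination (0 : K) * h2
  · (try simp only [map_add, map_mul, map_pow, map_zero, map_one, hff, it47, it53, it60, it63, it65, it69, it70, it71, iw]) <;> linear_combination (0 : K) * h2
  · (try simp only [map_add, map_mul, map_pow, map_zero, map_one, hff, it47, it53, it60, it63, it65, it69, it70, it71, iw]) <;> linear_combination (0 : K) * h2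
  · (try simp only [map_add, map_mul, map_pow, map_zero, map_one, hff, it47, it53, it60, it63, it65, it69, it70, it71, iw]) <;> linear_combination (0 : K) * h2
  · (try simp only [map_add, map_mul, map_pow, map_zero, map_one, hff, it47, it53, it60, it63, it65, it69, it70, it71, iw]) <;> linear_combination (0 : K) * h2
  · (try simp only [map_add, map_mul, map_pow, map_zero, map_one, hff, it47, it53, it60, it63, it65, it69, it70, it71, iw]) <;> linear_combination (0 : K) * h2
  · (try simp only [map_add, map_mul, map_pow, map_zero, map_one, hff, it47, it53, it60, it63, it65, it69, it70, it71, iw]) <;> linear_combination (0 : K) * h2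
  · (try simp only [map_add, map_mul, map_pow, map_zero, map_one, hff, it47, it53, it60, it63, it65, it69, it70, it71, iw]) <;> linear_combination (0 : K) * h2
  · (try simp only [map_add, map_mul, map_pow, map_zero, map_one, hff, it47, it53, it60, it63, it65, it69, it70, it71, iw]) <;> linear_combination (0 : K) * h2
  · (try simp only [map_add, map_mul, map_pow, map_zero, map_one, hff, it47, it53, it60, it63, it65, it69, it70, it71, iw]) <;> linear_combination (0 : K) * h2
  · (try simp only [map_add, map_mul, map_pow, map_zero, map_one, hff, it47, it53, it60, it63, it65, it69, it70, it71, iw]) <;> linear_combination (0 : K) * h2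
  · (try simp only [map_add, map_mul, map_pow, map_zero, map_one, hff, it47, it53, it60, it63, it65, it69, it70, it71, iw]) <;> linear_combination (-w*(f l49)) * h2
  · (try simp only [map_add, map_mul, map_pow, map_zero, map_one, hff, it47, it53, it60, it63, it65, it69, it70, it71, iw]) <;> linear_combination (0 : K) * h2
  · (try simp only [map_add, map_mul, map_pow, map_zero, map_one, hff, it47, it53, it60, it63, it65, it69, it70, it71, iw]) <;> linear_combination (-t63*w) * h2
  · (try simp only [map_add, map_mul, map_pow, map_zero, map_one, hff, it47, it53, it60, it63, it65, it69, it70, it71, iw]) <;> linear_combination (-t65*w - l36*t47*w^2*(f l36)) * h2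
  · (try simp only [map_add, map_mul, map_pow, map_zero, map_one, hff, it47, it53, it60, it63, it65, it69, it70, it71, iw]) <;> linear_combination (-l49*w*(f l49)) * h2

theorem st_LD_1_1_1_1_1_1_1 {l36 l49 l52 l54 l55 l66 t47 t53 t63 t65 t69 t70 t71 y : K} (hff : ∀ t, f (f t) = t) (it47 : f t47 = t47) (it53 : f t53 = t53) (it63 : f t63 = t63) (it65 : f t65 = t65) (it69 : f t69 = t69) (it70 : f t70 = t70) (it71 : f t71 = t71) :
    E f 0 0 0 0 0 0 0 (y) 0 0 0 0 0 0 0 0 0 0 0 0 0 0 0 0 * E f (l36) 0 0 0 0 0 0 0 0 (t47) 0 (l49) 0 (l52) (t53) (l54) (l55) ((l36) * f y + f (l36) * y) (t63) (t65) (l66) (t69) (t70) (t71) = E f (l36) 0 0 0 0 0 0 0 0 (t47) 0 (l49) 0 (l52) (t53) (l54 + t47*y) (l55) 0 (t63) (t65 + l36*t47*(f y) + t47*y*(f l36)) (l66 + l49*(f y)) (t69 + l52*(f y) + y*(f l52)) (t70 + l54*(f y) + y*(f l54) + l36*t53*(f y) + t47*y*(f y) + t53*y*(f l36)) (t71 + l52*t47*(f y) + t47*y*(f l52)) * E f 0 0 0 0 0 0 0 (y) 0 0 0 0 0 0 0 0 0 0 0 0 0 0 0 0 := by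
  have h2 : (2 : K) = 0 := CharTwo.two_eq_zero
  unfold E
  rw [W_mul, W_mul]
  apply W_congr
  · (try simp only [map_add, map_mul, map_pow, map_zero, map_one, hff, it47, it53, it63, it65, it69, it70, it71]) <;> linear_combination (0 : K) * h2
  · (try simp only [map_add, map_mul, map_pow, map_zero, map_one, hff, it47, it53, it63, it65, it69, it70, it71]) <;> linear_combination (0 : K) * h2
  · (try simp only [map_add, map_mul, map_pow, map_zero, map_one, hff, it47, it53, it63, it65, it69, it70, it71]) <;> linear_combination (0 : K) * h2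
  · (try simp only [map_add, map_mul, map_pow, map_zero, map_one, hff, it47, it53, it63, it65, it69, it70, it71]) <;> linear_combination (0 : K) * h2
  · (try simp only [map_add, map_mul, map_pow, map_zero, map_one, hff, it47, it53, it63, it65, it69, it70, it71]) <;> linear_combination (0 : K) * h2
  · (try simp only [map_add, map_mul, map_pow, map_zero, map_one, hff, it47, it53, it63, it65, it69, it70, it71]) <;> linear_combination (0 : K) * h2
  · (try simp only [map_add, map_mul, map_pow, map_zero, map_one, hff, it47, it53, it63, it65, it69, it70, it71]) <;> linear_combination (0 : K) * h2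
  · (try simp only [map_add, map_mul, map_pow, map_zero, map_one, hff, it47, it53, it63, it65, it69, it70, it71]) <;> linear_combination (0 : K) * h2
  · (try simp only [map_add, map_mul, map_pow, map_zero, map_one, hff, it47, it53, it63, it65, it69, it70, it71]) <;> linear_combination (0 : K) * h2
  · (try simp only [map_add, map_mul, map_pow, map_zero, map_one, hff, it47, it53, it63, it65, it69, it70, it71]) <;> linear_combination (0 : K) * h2
  · (try simp only [map_add, map_mul, map_pow, map_zero, map_one, hff, it47, it53, it63, it65, it69, it70, it71]) <;> linear_combination (0 : K) * h2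
  · (try simp only [map_add, map_mul, map_pow, map_zero, map_one, hff, it47, it53, it63, it65, it69, it70, it71]) <;> linear_combination (0 : K) * h2
  · (try simp only [map_add, map_mul, map_pow, map_zero, map_one, hff, it47, it53, it63, it65, it69, it70, it71]) <;> linear_combination (0 : K) * h2
  · (try simp only [map_add, map_mul, map_pow, map_zero, map_one, hff, it47, it53, it63, it65, it69, it70, it71]) <;> linear_combination (0 : K) * h2
  · (try simp only [map_add, map_mul, map_pow, map_zero, map_one, hff, it47, it53, it63, it65, it69, it70, it71]) <;> linear_combination (0 : K) * h2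
  · (try simp only [map_add, map_mul, map_pow, map_zero, map_one, hff, it47, it53, it63, it65, it69, it70, it71]) <;> linear_combination (0 : K) * h2
  · (try simp only [map_add, map_mul, map_pow, map_zero, map_one, hff, it47, it53, it63, it65, it69, it70, it71]) <;> linear_combination (0 : K) * h2
  · (try simp only [map_add, map_mul, map_pow, map_zero, map_one, hff, it47, it53, it63, it65, it69, it70, it71]) <;> linear_combination (0 : K) * h2
  · (try simp only [map_add, map_mul, map_pow, map_zero, map_one, hff, it47, it53, it63, it65, it69, it70, it71]) <;> linear_combination (-t47*y) * h2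
  · (try simp only [map_add, map_mul, map_pow, map_zero, map_one, hff, it47, it53, it63, it65, it69, it70, it71]) <;> linear_combination (0 : K) * h2
  · (try simp only [map_add, map_mul, map_pow, map_zero, map_one, hff, it47, it53, it63, it65, it69, it70, it71]) <;> linear_combination (0 : K) * h2
  · (try simp only [map_add, map_mul, map_pow, map_zero, map_one, hff, it47, it53, it63, it65, it69, it70, it71]) <;> linear_combination (0 : K) * h2
  · (try simp only [map_add, map_mul, map_pow, map_zero, map_one, hff, it47, it53, it63, it65, it69, it70, it71]) <;> linear_combination (0 : K) * h2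
  · (try simp only [map_add, map_mul, map_pow, map_zero, map_one, hff, it47, it53, it63, it65, it69, it70, it71]) <;> linear_combination (0 : K) * h2
  · (try simp only [map_add, map_mul, map_pow, map_zero, map_one, hff, it47, it53, it63, it65, it69, it70, it71]) <;> linear_combination (l36*(f y)) * h2
  · (try simp only [map_add, map_mul, map_pow, map_zero, map_one, hff, it47, it53, it63, it65, it69, it70, it71]) <;> linear_combination (0 : K) * h2
  · (try simp only [map_add, map_mul, map_pow, map_zero, map_one, hff, it47, it53, it63, it65, it69, it70, it71]) <;> linear_combination (0 : K) * h2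
  · (try simp only [map_add, map_mul, map_pow, map_zero, map_one, hff, it47, it53, it63, it65, it69, it70, it71]) <;> linear_combination (0 : K) * h2
  · (try simp only [map_add, map_mul, map_pow, map_zero, map_one, hff, it47, it53, it63, it65, it69, it70, it71]) <;> linear_combination (0 : K) * h2
  · (try simp only [map_add, map_mul, map_pow, map_zero, map_one, hff, it47, it53, it63, it65, it69, it70, it71]) <;> linear_combination (-t47*y*(f l36)) * h2
  · (try simp only [map_add, map_mul, map_pow, map_zero, map_one, hff, it47, it53, it63, it65, it69, it70, it71]) <;> linear_combination (0 : K) * h2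
  · (try simp only [map_add, map_mul, map_pow, map_zero, map_one, hff, it47, it53, it63, it65, it69, it70, it71]) <;> linear_combination (0 : K) * h2
  · (try simp only [map_add, map_mul, map_pow, map_zero, map_one, hff, it47, it53, it63, it65, it69, it70, it71]) <;> linear_combination (-y*(f l49)) * h2
  · (try simp only [map_add, map_mul, map_pow, map_zero, map_one, hff, it47, it53, it63, it65, it69, it70, it71]) <;> linear_combination (-y*(f l52)) * h2
  · (try simp only [map_add, map_mul, map_pow, map_zero, map_one, hff, it47, it53, it63, it65, it69, it70, it71]) <;> linear_combination (-y*(f l54) - t47*y*(f y) - t53*y*(f l36)) * h2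
  · (try simp only [map_add, map_mul, map_pow, map_zero, map_one, hff, it47, it53, it63, it65, it69, it70, it71]) <;> linear_combination (-t47*y*(f l52)) * h2

theorem st_LD_1_1_1_1_1_1_1_1 {l36 l52 l54 l55 l66 t47 t53 t63 t65 t69 t70 t71 y : K} (hff : ∀ t, f (f t) = t) (it47 : f t47 = t47) (it53 : f t53 = t53) (it63 : f t63 = t63) (it65 : f t65 = t65) (it69 : f t69 = t69) (it70 : f t70 = t70) (it71 : f t71 = t71) :
    E f 0 0 0 0 0 0 0 0 0 0 (y) 0 0 0 0 0 0 0 0 0 0 0 0 0 * E f (l36) 0 0 0 0 0 0 0 0 (t47) 0 ((l36) * y) 0 (l52) (t53) (l54) (l55) 0 (t63) (t65) (l66) (t69) (t70) (t71) = E f (l36) 0 0 0 0 0 0 0 0 (t47) 0 0 0 (l52) (t53) (l54) (l55) 0 (t63) (t65) (l66) (t69) (t70) (t71 + l66*(f y) + y*(f l66)) * E f 0 0 0 0 0 0 0 0 0 0 (y) 0 0 0 0 0 0 0 0 0 0 0 0 0 := by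
  have h2 : (2 : K) = 0 := CharTwo.two_eq_zero
  unfold E
  rw [W_mul, W_mul]
  apply W_congr
  · (try simp only [map_add, map_mul, map_pow, map_zero, map_one, hff, it47, it53, it63, it65, it69, it70, it71]) <;> linear_combination (0 : K) * h2
  · (try simp only [map_add, map_mul, map_pow, map_zero, map_one, hff, it47, it53, it63, it65, it69, it70, it71]) <;> linear_combination (0 : K) * h2
  · (try simp only [map_add, map_mul, map_pow, map_zero, map_one, hff, it47, it53, it63, it65, it69, it70, it71]) <;> linear_combination (0 : K) * h2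
  · (try simp only [map_add, map_mul, map_pow, map_zero, map_one, hff, it47, it53, it63, it65, it69, it70, it71]) <;> linear_combination (0 : K) * h2
  · (try simp only [map_add, map_mul, map_pow, map_zero, map_one, hff, it47, it53, it63, it65, it69, it70, it71]) <;> linear_combination (0 : K) * h2
  · (try simp only [map_add, map_mul, map_pow, map_zero, map_one, hff, it47, it53, it63, it65, it69, it70, it71]) <;> linear_combination (0 : K) * h2
  · (try simp only [map_add, map_mul, map_pow, map_zero, map_one, hff, it47, it53, it63, it65, it69, it70, it71]) <;> linear_combination (0 : K) * h2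
  · (try simp only [map_add, map_mul, map_pow, map_zero, map_one, hff, it47, it53, it63, it65, it69, it70, it71]) <;> linear_combination (0 : K) * h2
  · (try simp only [map_add, map_mul, map_pow, map_zero, map_one, hff, it47, it53, it63, it65, it69, it70, it71]) <;> linear_combination (0 : K) * h2
  · (try simp only [map_add, map_mul, map_pow, map_zero, map_one, hff, it47, it53, it63, it65, it69, it70, it71]) <;> linear_combination (0 : K) * h2
  · (try simp only [map_add, map_mul, map_pow, map_zero, map_one, hff, it47, it53, it63, it65, it69, it70, it71]) <;> linear_combination (0 : K) * h2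
  · (try simp only [map_add, map_mul, map_pow, map_zero, map_one, hff, it47, it53, it63, it65, it69, it70, it71]) <;> linear_combination (0 : K) * h2
  · (try simp only [map_add, map_mul, map_pow, map_zero, map_one, hff, it47, it53, it63, it65, it69, it70, it71]) <;> linear_combination (0 : K) * h2
  · (try simp only [map_add, map_mul, map_pow, map_zero, map_one, hff, it47, it53, it63, it65, it69, it70, it71]) <;> linear_combination (l36*y) * h2
  · (try simp only [map_add, map_mul, map_pow, map_zero, map_one, hff, it47, it53, it63, it65, it69, it70, it71]) <;> linear_combination (0 : K) * h2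
  · (try simp only [map_add, map_mul, map_pow, map_zero, map_one, hff, it47, it53, it63, it65, it69, it70, it71]) <;> linear_combination (0 : K) * h2
  · (try simp only [map_add, map_mul, map_pow, map_zero, map_one, hff, it47, it53, it63, it65, it69, it70, it71]) <;> linear_combination (0 : K) * h2
  · (try simp only [map_add, map_mul, map_pow, map_zero, map_one, hff, it47, it53, it63, it65, it69, it70, it71]) <;> linear_combination (0 : K) * h2
  · (try simp only [map_add, map_mul, map_pow, map_zero, map_one, hff, it47, it53, it63, it65, it69, it70, it71]) <;> linear_combination (0 : K) * h2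
  · (try simp only [map_add, map_mul, map_pow, map_zero, map_one, hff, it47, it53, it63, it65, it69, it70, it71]) <;> linear_combination (0 : K) * h2
  · (try simp only [map_add, map_mul, map_pow, map_zero, map_one, hff, it47, it53, it63, it65, it69, it70, it71]) <;> linear_combination (0 : K) * h2
  · (try simp only [map_add, map_mul, map_pow, map_zero, map_one, hff, it47, it53, it63, it65, it69, it70, it71]) <;> linear_combination (0 : K) * h2
  · (try simp only [map_add, map_mul, map_pow, map_zero, map_one, hff, it47, it53, it63, it65, it69, it70, it71]) <;> linear_combination (0 : K) * h2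
  · (try simp only [map_add, map_mul, map_pow, map_zero, map_one, hff, it47, it53, it63, it65, it69, it70, it71]) <;> linear_combination (0 : K) * h2
  · (try simp only [map_add, map_mul, map_pow, map_zero, map_one, hff, it47, it53, it63, it65, it69, it70, it71]) <;> linear_combination (0 : K) * h2
  · (try simp only [map_add, map_mul, map_pow, map_zero, map_one, hff, it47, it53, it63, it65, it69, it70, it71]) <;> linear_combination (0 : K) * h2
  · (try simp only [map_add, map_mul, map_pow, map_zero, map_one, hff, it47, it53, it63, it65, it69, it70, it71]) <;> linear_combination (0 : K) * h2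
  · (try simp only [map_add, map_mul, map_pow, map_zero, map_one, hff, it47, it53, it63, it65, it69, it70, it71]) <;> linear_combination (0 : K) * h2
  · (try simp only [map_add, map_mul, map_pow, map_zero, map_one, hff, it47, it53, it63, it65, it69, it70, it71]) <;> linear_combination (0 : K) * h2
  · (try simp only [map_add, map_mul, map_pow, map_zero, map_one, hff, it47, it53, it63, it65, it69, it70, it71]) <;> linear_combination (0 : K) * h2
  · (try simp only [map_add, map_mul, map_pow, map_zero, map_one, hff, it47, it53, it63, it65, it69, it70, it71]) <;> linear_combination (0 : K) * h2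
  · (try simp only [map_add, map_mul, map_pow, map_zero, map_one, hff, it47, it53, it63, it65, it69, it70, it71]) <;> linear_combination (0 : K) * h2
  · (try simp only [map_add, map_mul, map_pow, map_zero, map_one, hff, it47, it53, it63, it65, it69, it70, it71]) <;> linear_combination (0 : K) * h2
  · (try simp only [map_add, map_mul, map_pow, map_zero, map_one, hff, it47, it53, it63, it65, it69, it70, it71]) <;> linear_combination (0 : K) * h2
  · (try simp only [map_add, map_mul, map_pow, map_zero, map_one, hff, it47, it53, it63, it65, it69, it70, it71]) <;> linear_combination (0 : K) * h2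
  · (try simp only [map_add, map_mul, map_pow, map_zero, map_one, hff, it47, it53, it63, it65, it69, it70, it71]) <;> linear_combination (-l66*(f y) - y*(f l66)) * h2

theorem st_LD_1_1_1_1_1_1_1_1_1_1_1 {l36 l54 l66 t47 t63 t65 t69 t70 t71 w : K} (hff : ∀ t, f (f t) = t) (it47 : f t47 = t47) (it63 : f t63 = t63) (it65 : f t65 = t65) (it69 : f t69 = t69) (it70 : f t70 = t70) (it71 : f t71 = t71) (iw : f w = w) :
    E f 0 0 0 0 0 0 0 0 0 0 0 0 (w) 0 0 0 0 0 0 0 0 0 0 0 * E f (l36) 0 0 0 0 0 0 0 0 (t47) 0 0 0 ((l36) * w) 0 (l54) 0 0 (t63) (t65) (l66) (t69) (t70) (t71) = E f (l36) 0 0 0 0 0 0 0 0 (t47) 0 0 0 0 0 (l54) 0 0 (t63 + l36*w*(f l36)) (t65) (l66) (t69) (t70) (t71 + t65*w) * E f 0 0 0 0 0 0 0 0 0 0 0 0 (w) 0 0 0 0 0 0 0 0 0 0 0 := by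
  have h2 : (2 : K) = 0 := CharTwo.two_eq_zero
  unfold E
  rw [W_mul, W_mul]
  apply W_congr
  · (try simp only [map_add, map_mul, map_pow, map_zero, map_one, hff, it47, it63, it65, it69, it70, it71, iw]) <;> linear_combination (0 : K) * h2
  · (try simp only [map_add, map_mul, map_pow, map_zero, map_one, hff, it47, it63, it65, it69, it70, it71, iw]) <;> linear_combination (0 : K) * h2
  · (try simp only [map_add, map_mul, map_pow, map_zero, map_one, hff, it47, it63, it65, it69, it70, it71, iw]) <;> linear_combination (0 : K) * h2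
  · (try simp only [map_add, map_mul, map_pow, map_zero, map_one, hff, it47, it63, it65, it69, it70, it71, iw]) <;> linear_combination (0 : K) * h2
  · (try simp only [map_add, map_mul, map_pow, map_zero, map_one, hff, it47, it63, it65, it69, it70, it71, iw]) <;> linear_combination (0 : K) * h2
  · (try simp only [map_add, map_mul, map_pow, map_zero, map_one, hff, it47, it63, it65, it69, it70, it71, iw]) <;> linear_combination (0 : K) * h2
  · (try simp only [map_add, map_mul, map_pow, map_zero, map_one, hff, it47, it63, it65, it69, it70, it71, iw]) <;> linear_combination (0 : K) * h2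
  · (try simp only [map_add, map_mul, map_pow, map_zero, map_one, hff, it47, it63, it65, it69, it70, it71, iw]) <;> linear_combination (0 : K) * h2
  · (try simp only [map_add, map_mul, map_pow, map_zero, map_one, hff, it47, it63, it65, it69, it70, it71, iw]) <;> linear_combination (0 : K) * h2
  · (try simp only [map_add, map_mul, map_pow, map_zero, map_one, hff, it47, it63, it65, it69, it70, it71, iw]) <;> linear_combination (0 : K) * h2
  · (try simp only [map_add, map_mul, map_pow, map_zero, map_one, hff, it47, it63, it65, it69, it70, it71, iw]) <;> linear_combination (0 : K) * h2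
  · (try simp only [map_add, map_mul, map_pow, map_zero, map_one, hff, it47, it63, it65, it69, it70, it71, iw]) <;> linear_combination (0 : K) * h2
  · (try simp only [map_add, map_mul, map_pow, map_zero, map_one, hff, it47, it63, it65, it69, it70, it71, iw]) <;> linear_combination (0 : K) * h2
  · (try simp only [map_add, map_mul, map_pow, map_zero, map_one, hff, it47, it63, it65, it69, it70, it71, iw]) <;> linear_combination (0 : K) * h2
  · (try simp only [map_add, map_mul, map_pow, map_zero, map_one, hff, it47, it63, it65, it69, it70, it71, iw]) <;> linear_combination (0 : K) * h2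
  · (try simp only [map_add, map_mul, map_pow, map_zero, map_one, hff, it47, it63, it65, it69, it70, it71, iw]) <;> linear_combination (0 : K) * h2
  · (try simp only [map_add, map_mul, map_pow, map_zero, map_one, hff, it47, it63, it65, it69, it70, it71, iw]) <;> linear_combination (l36*w) * h2
  · (try simp only [map_add, map_mul, map_pow, map_zero, map_one, hff, it47, it63, it65, it69, it70, it71, iw]) <;> linear_combination (0 : K) * h2
  · (try simp only [map_add, map_mul, map_pow, map_zero, map_one, hff, it47, it63, it65, it69, it70, it71, iw]) <;> linear_combination (0 : K) * h2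
  · (try simp only [map_add, map_mul, map_pow, map_zero, map_one, hff, it47, it63, it65, it69, it70, it71, iw]) <;> linear_combination (0 : K) * h2
  · (try simp only [map_add, map_mul, map_pow, map_zero, map_one, hff, it47, it63, it65, it69, it70, it71, iw]) <;> linear_combination (0 : K) * h2
  · (try simp only [map_add, map_mul, map_pow, map_zero, map_one, hff, it47, it63, it65, it69, it70, it71, iw]) <;> linear_combination (0 : K) * h2
  · (try simp only [map_add, map_mul, map_pow, map_zero, map_one, hff, it47, it63, it65, it69, it70, it71, iw]) <;> linear_combination (0 : K) * h2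
  · (try simp only [map_add, map_mul, map_pow, map_zero, map_one, hff, it47, it63, it65, it69, it70, it71, iw]) <;> linear_combination (0 : K) * h2
  · (try simp only [map_add, map_mul, map_pow, map_zero, map_one, hff, it47, it63, it65, it69, it70, it71, iw]) <;> linear_combination (0 : K) * h2
  · (try simp only [map_add, map_mul, map_pow, map_zero, map_one, hff, it47, it63, it65, it69, it70, it71, iw]) <;> linear_combination (0 : K) * h2
  · (try simp only [map_add, map_mul, map_pow, map_zero, map_one, hff, it47, it63, it65, it69, it70, it71, iw]) <;> linear_combination (0 : K) * h2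
  · (try simp only [map_add, map_mul, map_pow, map_zero, map_one, hff, it47, it63, it65, it69, it70, it71, iw]) <;> linear_combination (0 : K) * h2
  · (try simp only [map_add, map_mul, map_pow, map_zero, map_one, hff, it47, it63, it65, it69, it70, it71, iw]) <;> linear_combination (0 : K) * h2
  · (try simp only [map_add, map_mul, map_pow, map_zero, map_one, hff, it47, it63, it65, it69, it70, it71, iw]) <;> linear_combination (0 : K) * h2
  · (try simp only [map_add, map_mul, map_pow, map_zero, map_one, hff, it47, it63, it65, it69, it70, it71, iw]) <;> linear_combination (0 : K) * h2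
  · (try simp only [map_add, map_mul, map_pow, map_zero, map_one, hff, it47, it63, it65, it69, it70, it71, iw]) <;> linear_combination (0 : K) * h2
  · (try simp only [map_add, map_mul, map_pow, map_zero, map_one, hff, it47, it63, it65, it69, it70, it71, iw]) <;> linear_combination (0 : K) * h2
  · (try simp only [map_add, map_mul, map_pow, map_zero, map_one, hff, it47, it63, it65, it69, it70, it71, iw]) <;> linear_combination (0 : K) * h2
  · (try simp only [map_add, map_mul, map_pow, map_zero, map_one, hff, it47, it63, it65, it69, it70, it71, iw]) <;> linear_combination (0 : K) * h2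
  · (try simp only [map_add, map_mul, map_pow, map_zero, map_one, hff, it47, it63, it65, it69, it70, it71, iw]) <;> linear_combination (-t65*w) * h2

theorem st_LD_1_1_1_1_1_1_1_1_1_1_1_1 {l36 l54 l66 t47 t65 t69 t70 t71 y : K} (hff : ∀ t, f (f t) = t) (it47 : f t47 = t47) (it65 : f t65 = t65) (it69 : f t69 = t69) (it70 : f t70 = t70) (it71 : f t71 = t71) :
    E f 0 0 0 0 0 0 0 0 0 0 0 0 0 (y) 0 0 0 0 0 0 0 0 0 0 * E f (l36) 0 0 0 0 0 0 0 0 (t47) 0 0 0 0 0 (l54) 0 0 ((l36) * f y + f (l36) * y) (t65) (l66) (t69) (t70) (t71) = E f (l36) 0 0 0 0 0 0 0 0 (t47) 0 0 0 0 0 (l54) 0 0 0 (t65) (l66) (t69) (t70) (t71 + l54*(f y) + y*(f l54)) * E f 0 0 0 0 0 0 0 0 0 0 0 0 0 (y) 0 0 0 0 0 0 0 0 0 0 := by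
  have h2 : (2 : K) = 0 := CharTwo.two_eq_zero
  unfold E
  rw [W_mul, W_mul]
  apply W_congr
  · (try simp only [map_add, map_mul, map_pow, map_zero, map_one, hff, it47, it65, it69, it70, it71]) <;> linear_combination (0 : K) * h2
  · (try simp only [map_add, map_mul, map_pow, map_zero, map_one, hff, it47, it65, it69, it70, it71]) <;> linear_combination (0 : K) * h2
  · (try simp only [map_add, map_mul, map_pow, map_zero, map_one, hff, it47, it65, it69, it70, it71]) <;> linear_combination (0 : K) * h2
  · (try simp only [map_add, map_mul, map_pow, map_zero, map_one, hff, it47, it65, it69, it70, it71]) <;> linear_combination (0 : K) * h2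
  · (try simp only [map_add, map_mul, map_pow, map_zero, map_one, hff, it47, it65, it69, it70, it71]) <;> linear_combination (0 : K) * h2
  · (try simp only [map_add, map_mul, map_pow, map_zero, map_one, hff, it47, it65, it69, it70, it71]) <;> linear_combination (0 : K) * h2
  · (try simp only [map_add, map_mul, map_pow, map_zero, map_one, hff, it47, it65, it69, it70, it71]) <;> linear_combination (0 : K) * h2
  · (try simp only [map_add, map_mul, map_pow, map_zero, map_one, hff, it47, it65, it69, it70, it71]) <;> linear_combination (0 : K) * h2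
  · (try simp only [map_add, map_mul, map_pow, map_zero, map_one, hff, it47, it65, it69, it70, it71]) <;> linear_combination (0 : K) * h2
  · (try simp only [map_add, map_mul, map_pow, map_zero, map_one, hff, it47, it65, it69, it70, it71]) <;> linear_combination (0 : K) * h2
  · (try simp only [map_add, map_mul, map_pow, map_zero, map_one, hff, it47, it65, it69, it70, it71]) <;> linear_combination (0 : K) * h2
  · (try simp only [map_add, map_mul, map_pow, map_zero, map_one, hff, it47, it65, it69, it70, it71]) <;> linear_combination (0 : K) * h2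
  · (try simp only [map_add, map_mul, map_pow, map_zero, map_one, hff, it47, it65, it69, it70, it71]) <;> linear_combination (0 : K) * h2
  · (try simp only [map_add, map_mul, map_pow, map_zero, map_one, hff, it47, it65, it69, it70, it71]) <;> linear_combination (0 : K) * h2
  · (try simp only [map_add, map_mul, map_pow, map_zero, map_one, hff, it47, it65, it69, it70, it71]) <;> linear_combination (0 : K) * h2
  · (try simp only [map_add, map_mul, map_pow, map_zero, map_one, hff, it47, it65, it69, it70, it71]) <;> linear_combination (0 : K) * h2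
  · (try simp only [map_add, map_mul, map_pow, map_zero, map_one, hff, it47, it65, it69, it70, it71]) <;> linear_combination (0 : K) * h2
  · (try simp only [map_add, map_mul, map_pow, map_zero, map_one, hff, it47, it65, it69, it70, it71]) <;> linear_combination (0 : K) * h2
  · (try simp only [map_add, map_mul, map_pow, map_zero, map_one, hff, it47, it65, it69, it70, it71]) <;> linear_combination (0 : K) * h2
  · (try simp only [map_add, map_mul, map_pow, map_zero, map_one, hff, it47, it65, it69, it70, it71]) <;> linear_combination (0 : K) * h2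
  · (try simp only [map_add, map_mul, map_pow, map_zero, map_one, hff, it47, it65, it69, it70, it71]) <;> linear_combination (0 : K) * h2
  · (try simp only [map_add, map_mul, map_pow, map_zero, map_one, hff, it47, it65, it69, it70, it71]) <;> linear_combination (0 : K) * h2
  · (try simp only [map_add, map_mul, map_pow, map_zero, map_one, hff, it47, it65, it69, it70, it71]) <;> linear_combination (0 : K) * h2
  · (try simp only [map_add, map_mul, map_pow, map_zero, map_one, hff, it47, it65, it69, it70, it71]) <;> linear_combination (0 : K) * h2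
  · (try simp only [map_add, map_mul, map_pow, map_zero, map_one, hff, it47, it65, it69, it70, it71]) <;> linear_combination (0 : K) * h2
  · (try simp only [map_add, map_mul, map_pow, map_zero, map_one, hff, it47, it65, it69, it70, it71]) <;> linear_combination (0 : K) * h2
  · (try simp only [map_add, map_mul, map_pow, map_zero, map_one, hff, it47, it65, it69, it70, it71]) <;> linear_combination (0 : K) * h2
  · (try simp only [map_add, map_mul, map_pow, map_zero, map_one, hff, it47, it65, it69, it70, it71]) <;> linear_combination (l36*(f y)) * h2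
  · (try simp only [map_add, map_mul, map_pow, map_zero, map_one, hff, it47, it65, it69, it70, it71]) <;> linear_combination (0 : K) * h2
  · (try simp only [map_add, map_mul, map_pow, map_zero, map_one, hff, it47, it65, it69, it70, it71]) <;> linear_combination (0 : K) * h2
  · (try simp only [map_add, map_mul, map_pow, map_zero, map_one, hff, it47, it65, it69, it70, it71]) <;> linear_combination (0 : K) * h2
  · (try simp only [map_add, map_mul, map_pow, map_zero, map_one, hff, it47, it65, it69, it70, it71]) <;> linear_combination (0 : K) * h2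
  · (try simp only [map_add, map_mul, map_pow, map_zero, map_one, hff, it47, it65, it69, it70, it71]) <;> linear_combination (0 : K) * h2
  · (try simp only [map_add, map_mul, map_pow, map_zero, map_one, hff, it47, it65, it69, it70, it71]) <;> linear_combination (0 : K) * h2
  · (try simp only [map_add, map_mul, map_pow, map_zero, map_one, hff, it47, it65, it69, it70, it71]) <;> linear_combination (0 : K) * h2
  · (try simp only [map_add, map_mul, map_pow, map_zero, map_one, hff, it47, it65, it69, it70, it71]) <;> linear_combination (-y*(f l54)) * h2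

theorem st_LD_1_1_1_1_1_1_1_1_1_1_1_1_1 {l36 l66 t47 t65 t69 t70 t71 w : K} (hff : ∀ t, f (f t) = t) (it47 : f t47 = t47) (it65 : f t65 = t65) (it69 : f t69 = t69) (it70 : f t70 = t70) (it71 : f t71 = t71) (iw : f w = w) :
    E f 0 0 0 0 0 0 0 0 0 0 0 0 0 0 (w) 0 0 0 0 0 0 0 0 0 * E f (l36) 0 0 0 0 0 0 0 0 (t47) 0 0 0 0 0 ((l36) * w) 0 0 0 (t65) (l66) (t69) (t70) (t71) = E f (l36) 0 0 0 0 0 0 0 0 (t47) 0 0 0 0 0 0 0 0 0 (t65 + l36*w*(f l36)) (l66) (t69) (t70) (t71) * E f 0 0 0 0 0 0 0 0 0 0 0 0 0 0 (w) 0 0 0 0 0 0 0 0 0 := by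
  have h2 : (2 : K) = 0 := CharTwo.two_eq_zero
  unfold E
  rw [W_mul, W_mul]
  apply W_congr
  · (try simp only [map_add, map_mul, map_pow, map_zero, map_one, hff, it47, it65, it69, it70, it71, iw]) <;> linear_combination (0 : K) * h2
  · (try simp only [map_add, map_mul, map_pow, map_zero, map_one, hff, it47, it65, it69, it70, it71, iw]) <;> linear_combination (0 : K) * h2
  · (try simp only [map_add, map_mul, map_pow, map_zero, map_one, hff, it47, it65, it69, it70, it71, iw]) <;> linear_combination (0 : K) * h2
  · (try simp only [map_add, map_mul, map_pow, map_zero, map_one, hff, it47, it65, it69, it70, it71, iw]) <;> linear_combination (0 : K) * h2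
  · (try simp only [map_add, map_mul, map_pow, map_zero, map_one, hff, it47, it65, it69, it70, it71, iw]) <;> linear_combination (0 : K) * h2
  · (try simp only [map_add, map_mul, map_pow, map_zero, map_one, hff, it47, it65, it69, it70, it71, iw]) <;> linear_combination (0 : K) * h2
  · (try simp only [map_add, map_mul, map_pow, map_zero, map_one, hff, it47, it65, it69, it70, it71, iw]) <;> linear_combination (0 : K) * h2
  · (try simp only [map_add, map_mul, map_pow, map_zero, map_one, hff, it47, it65, it69, it70, it71, iw]) <;> linear_combination (0 : K) * h2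
  · (try simp only [map_add, map_mul, map_pow, map_zero, map_one, hff, it47, it65, it69, it70, it71, iw]) <;> linear_combination (0 : K) * h2
  · (try simp only [map_add, map_mul, map_pow, map_zero, map_one, hff, it47, it65, it69, it70, it71, iw]) <;> linear_combination (0 : K) * h2
  · (try simp only [map_add, map_mul, map_pow, map_zero, map_one, hff, it47, it65, it69, it70, it71, iw]) <;> linear_combination (0 : K) * h2
  · (try simp only [map_add, map_mul, map_pow, map_zero, map_one, hff, it47, it65, it69, it70, it71, iw]) <;> linear_combination (0 : K) * h2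
  · (try simp only [map_add, map_mul, map_pow, map_zero, map_one, hff, it47, it65, it69, it70, it71, iw]) <;> linear_combination (0 : K) * h2
  · (try simp only [map_add, map_mul, map_pow, map_zero, map_one, hff, it47, it65, it69, it70, it71, iw]) <;> linear_combination (0 : K) * h2
  · (try simp only [map_add, map_mul, map_pow, map_zero, map_one, hff, it47, it65, it69, it70, it71, iw]) <;> linear_combination (0 : K) * h2
  · (try simp only [map_add, map_mul, map_pow, map_zero, map_one, hff, it47, it65, it69, it70, it71, iw]) <;> linear_combination (0 : K) * h2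
  · (try simp only [map_add, map_mul, map_pow, map_zero, map_one, hff, it47, it65, it69, it70, it71, iw]) <;> linear_combination (0 : K) * h2
  · (try simp only [map_add, map_mul, map_pow, map_zero, map_one, hff, it47, it65, it69, it70, it71, iw]) <;> linear_combination (0 : K) * h2
  · (try simp only [map_add, map_mul, map_pow, map_zero, map_one, hff, it47, it65, it69, it70, it71, iw]) <;> linear_combination (l36*w) * h2
  · (try simp only [map_add, map_mul, map_pow, map_zero, map_one, hff, it47, it65, it69, it70, it71, iw]) <;> linear_combination (0 : K) * h2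
  · (try simp only [map_add, map_mul, map_pow, map_zero, map_one, hff, it47, it65, it69, it70, it71, iw]) <;> linear_combination (0 : K) * h2
  · (try simp only [map_add, map_mul, map_pow, map_zero, map_one, hff, it47, it65, it69, it70, it71, iw]) <;> linear_combination (0 : K) * h2
  · (try simp only [map_add, map_mul, map_pow, map_zero, map_one, hff, it47, it65, it69, it70, it71, iw]) <;> linear_combination (0 : K) * h2
  · (try simp only [map_add, map_mul, map_pow, map_zero, map_one, hff, it47, it65, it69, it70, it71, iw]) <;> linear_combination (0 : K) * h2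
  · (try simp only [map_add, map_mul, map_pow, map_zero, map_one, hff, it47, it65, it69, it70, it71, iw]) <;> linear_combination (0 : K) * h2
  · (try simp only [map_add, map_mul, map_pow, map_zero, map_one, hff, it47, it65, it69, it70, it71, iw]) <;> linear_combination (0 : K) * h2
  · (try simp only [map_add, map_mul, map_pow, map_zero, map_one, hff, it47, it65, it69, it70, it71, iw]) <;> linear_combination (0 : K) * h2
  · (try simp only [map_add, map_mul, map_pow, map_zero, map_one, hff, it47, it65, it69, it70, it71, iw]) <;> linear_combination (0 : K) * h2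
  · (try simp only [map_add, map_mul, map_pow, map_zero, map_one, hff, it47, it65, it69, it70, it71, iw]) <;> linear_combination (0 : K) * h2
  · (try simp only [map_add, map_mul, map_pow, map_zero, map_one, hff, it47, it65, it69, it70, it71, iw]) <;> linear_combination (0 : K) * h2
  · (try simp only [map_add, map_mul, map_pow, map_zero, map_one, hff, it47, it65, it69, it70, it71, iw]) <;> linear_combination (0 : K) * h2
  · (try simp only [map_add, map_mul, map_pow, map_zero, map_one, hff, it47, it65, it69, it70, it71, iw]) <;> linear_combination (0 : K) * h2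
  · (try simp only [map_add, map_mul, map_pow, map_zero, map_one, hff, it47, it65, it69, it70, it71, iw]) <;> linear_combination (0 : K) * h2
  · (try simp only [map_add, map_mul, map_pow, map_zero, map_one, hff, it47, it65, it69, it70, it71, iw]) <;> linear_combination (0 : K) * h2
  · (try simp only [map_add, map_mul, map_pow, map_zero, map_one, hff, it47, it65, it69, it70, it71, iw]) <;> linear_combination (0 : K) * h2
  · (try simp only [map_add, map_mul, map_pow, map_zero, map_one, hff, it47, it65, it69, it70, it71, iw]) <;> linear_combination (0 : K) * h2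

theorem st_LD_1_1_1_1_1_1_1_1_1_1_1_1_1_1 {l36 l66 t47 t69 t70 t71 y : K} (hff : ∀ t, f (f t) = t) (it47 : f t47 = t47) (it69 : f t69 = t69) (it70 : f t70 = t70) (it71 : f t71 = t71) :
    E f 0 0 0 0 0 0 0 0 0 0 0 0 0 0 0 (y) 0 0 0 0 0 0 0 0 * E f (l36) 0 0 0 0 0 0 0 0 (t47) 0 0 0 0 0 0 0 0 0 ((l36) * f y + f (l36) * y) (l66) (t69) (t70) (t71) = E f (l36) 0 0 0 0 0 0 0 0 (t47) 0 0 0 0 0 0 0 0 0 0 (l66) (t69) (t70) (t71) * E f 0 0 0 0 0 0 0 0 0 0 0 0 0 0 0 (y) 0 0 0 0 0 0 0 0 := by
  have h2 : (2 : K) = 0 := CharTwo.two_eq_zero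
  unfold E
  rw [W_mul, W_mul]
  apply W_congr
  · (try simp only [map_add, map_mul, map_pow, map_zero, map_one, hff, it47, it69, it70, it71]) <;> linear_combination (0 : K) * h2
  · (try simp only [map_add, map_mul, map_pow, map_zero, map_one, hff, it47, it69, it70, it71]) <;> linear_combination (0 : K) * h2
  · (try simp only [map_add, map_mul, map_pow, map_zero, map_one, hff, it47, it69, it70, it71]) <;> linear_combination (0 : K) * h2
  · (try simp only [map_add, map_mul, map_pow, map_zero, map_one, hff, it47, it69, it70, it71]) <;> linear_combination (0 : K) * h2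
  · (try simp only [map_add, map_mul, map_pow, map_zero, map_one, hff, it47, it69, it70, it71]) <;> linear_combination (0 : K) * h2
  · (try simp only [map_add, map_mul, map_pow, map_zero, map_one, hff, it47, it69, it70, it71]) <;> linear_combination (0 : K) * h2
  · (try simp only [map_add, map_mul, map_pow, map_zero, map_one, hff, it47, it69, it70, it71]) <;> linear_combination (0 : K) * h2
  · (try simp only [map_add, map_mul, map_pow, map_zero, map_one, hff, it47, it69, it70, it71]) <;> linear_combination (0 : K) * h2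
  · (try simp only [map_add, map_mul, map_pow, map_zero, map_one, hff, it47, it69, it70, it71]) <;> linear_combination (0 : K) * h2
  · (try simp only [map_add, map_mul, map_pow, map_zero, map_one, hff, it47, it69, it70, it71]) <;> linear_combination (0 : K) * h2
  · (try simp only [map_add, map_mul, map_pow, map_zero, map_one, hff, it47, it69, it70, it71]) <;> linear_combination (0 : K) * h2
  · (try simp only [map_add, map_mul, map_pow, map_zero, map_one, hff, it47, it69, it70, it71]) <;> linear_combination (0 : K) * h2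
  · (try simp only [map_add, map_mul, map_pow, map_zero, map_one, hff, it47, it69, it70, it71]) <;> linear_combination (0 : K) * h2
  · (try simp only [map_add, map_mul, map_pow, map_zero, map_one, hff, it47, it69, it70, it71]) <;> linear_combination (0 : K) * h2
  · (try simp only [map_add, map_mul, map_pow, map_zero, map_one, hff, it47, it69, it70, it71]) <;> linear_combination (0 : K) * h2
  · (try simp only [map_add, map_mul, map_pow, map_zero, map_one, hff, it47, it69, it70, it71]) <;> linear_combination (0 : K) * h2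
  · (try simp only [map_add, map_mul, map_pow, map_zero, map_one, hff, it47, it69, it70, it71]) <;> linear_combination (0 : K) * h2
  · (try simp only [map_add, map_mul, map_pow, map_zero, map_one, hff, it47, it69, it70, it71]) <;> linear_combination (0 : K) * h2
  · (try simp only [map_add, map_mul, map_pow, map_zero, map_one, hff, it47, it69, it70, it71]) <;> linear_combination (0 : K) * h2
  · (try simp only [map_add, map_mul, map_pow, map_zero, map_one, hff, it47, it69, it70, it71]) <;> linear_combination (0 : K) * h2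
  · (try simp only [map_add, map_mul, map_pow, map_zero, map_one, hff, it47, it69, it70, it71]) <;> linear_combination (0 : K) * h2
  · (try simp only [map_add, map_mul, map_pow, map_zero, map_one, hff, it47, it69, it70, it71]) <;> linear_combination (0 : K) * h2
  · (try simp only [map_add, map_mul, map_pow, map_zero, map_one, hff, it47, it69, it70, it71]) <;> linear_combination (0 : K) * h2
  · (try simp only [map_add, map_mul, map_pow, map_zero, map_one, hff, it47, it69, it70, it71]) <;> linear_combination (0 : K) * h2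
  · (try simp only [map_add, map_mul, map_pow, map_zero, map_one, hff, it47, it69, it70, it71]) <;> linear_combination (0 : K) * h2
  · (try simp only [map_add, map_mul, map_pow, map_zero, map_one, hff, it47, it69, it70, it71]) <;> linear_combination (0 : K) * h2
  · (try simp only [map_add, map_mul, map_pow, map_zero, map_one, hff, it47, it69, it70, it71]) <;> linear_combination (0 : K) * h2
  · (try simp only [map_add, map_mul, map_pow, map_zero, map_one, hff, it47, it69, it70, it71]) <;> linear_combination (0 : K) * h2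
  · (try simp only [map_add, map_mul, map_pow, map_zero, map_one, hff, it47, it69, it70, it71]) <;> linear_combination (0 : K) * h2
  · (try simp only [map_add, map_mul, map_pow, map_zero, map_one, hff, it47, it69, it70, it71]) <;> linear_combination (l36*(f y)) * h2
  · (try simp only [map_add, map_mul, map_pow, map_zero, map_one, hff, it47, it69, it70, it71]) <;> linear_combination (0 : K) * h2
  · (try simp only [map_add, map_mul, map_pow, map_zero, map_one, hff, it47, it69, it70, it71]) <;> linear_combination (0 : K) * h2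
  · (try simp only [map_add, map_mul, map_pow, map_zero, map_one, hff, it47, it69, it70, it71]) <;> linear_combination (0 : K) * h2
  · (try simp only [map_add, map_mul, map_pow, map_zero, map_one, hff, it47, it69, it70, it71]) <;> linear_combination (0 : K) * h2
  · (try simp only [map_add, map_mul, map_pow, map_zero, map_one, hff, it47, it69, it70, it71]) <;> linear_combination (0 : K) * h2
  · (try simp only [map_add, map_mul, map_pow, map_zero, map_one, hff, it47, it69, it70, it71]) <;> linear_combination (0 : K) * h2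

theorem st_LD_1_1_1_1_1_1_1_1_1_1_1_1_1_1_1 {l36 t47 t69 t70 t71 y : K} (hff : ∀ t, f (f t) = t) (it47 : f t47 = t47) (it69 : f t69 = t69) (it70 : f t70 = t70) (it71 : f t71 = t71) :
    E f 0 0 0 0 0 0 0 0 0 0 0 0 0 0 0 0 (y) 0 0 0 0 0 0 0 * E f (l36) 0 0 0 0 0 0 0 0 (t47) 0 0 0 0 0 0 0 0 0 0 (((f l36)) * y) (t69) (t70) (t71) = E f (l36) 0 0 0 0 0 0 0 0 (t47) 0 0 0 0 0 0 0 0 0 0 0 (t69) (t70) (t71) * E f 0 0 0 0 0 0 0 0 0 0 0 0 0 0 0 0 (y) 0 0 0 0 0 0 0 := by
  have h2 : (2 : K) = 0 := CharTwo.two_eq_zero
  unfold E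
  rw [W_mul, W_mul]
  apply W_congr
  · (try simp only [map_add, map_mul, map_pow, map_zero, map_one, hff, it47, it69, it70, it71]) <;> linear_combination (0 : K) * h2
  · (try simp only [map_add, map_mul, map_pow, map_zero, map_one, hff, it47, it69, it70, it71]) <;> linear_combination (0 : K) * h2
  · (try simp only [map_add, map_mul, map_pow, map_zero, map_one, hff, it47, it69, it70, it71]) <;> linear_combination (0 : K) * h2
  · (try simp only [map_add, map_mul, map_pow, map_zero, map_one, hff, it47, it69, it70, it71]) <;> linear_combination (0 : K) * h2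
  · (try simp only [map_add, map_mul, map_pow, map_zero, map_one, hff, it47, it69, it70, it71]) <;> linear_combination (0 : K) * h2
  · (try simp only [map_add, map_mul, map_pow, map_zero, map_one, hff, it47, it69, it70, it71]) <;> linear_combination (0 : K) * h2
  · (try simp only [map_add, map_mul, map_pow, map_zero, map_one, hff, it47, it69, it70, it71]) <;> linear_combination (0 : K) * h2
  · (try simp only [map_add, map_mul, map_pow, map_zero, map_one, hff, it47, it69, it70, it71]) <;> linear_combination (0 : K) * h2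
  · (try simp only [map_add, map_mul, map_pow, map_zero, map_one, hff, it47, it69, it70, it71]) <;> linear_combination (0 : K) * h2
  · (try simp only [map_add, map_mul, map_pow, map_zero, map_one, hff, it47, it69, it70, it71]) <;> linear_combination (0 : K) * h2
  · (try simp only [map_add, map_mul, map_pow, map_zero, map_one, hff, it47, it69, it70, it71]) <;> linear_combination (0 : K) * h2
  · (try simp only [map_add, map_mul, map_pow, map_zero, map_one, hff, it47, it69, it70, it71]) <;> linear_combination (0 : K) * h2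
  · (try simp only [map_add, map_mul, map_pow, map_zero, map_one, hff, it47, it69, it70, it71]) <;> linear_combination (0 : K) * h2
  · (try simp only [map_add, map_mul, map_pow, map_zero, map_one, hff, it47, it69, it70, it71]) <;> linear_combination (0 : K) * h2
  · (try simp only [map_add, map_mul, map_pow, map_zero, map_one, hff, it47, it69, it70, it71]) <;> linear_combination (0 : K) * h2
  · (try simp only [map_add, map_mul, map_pow, map_zero, map_one, hff, it47, it69, it70, it71]) <;> linear_combination (0 : K) * h2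
  · (try simp only [map_add, map_mul, map_pow, map_zero, map_one, hff, it47, it69, it70, it71]) <;> linear_combination (0 : K) * h2
  · (try simp only [map_add, map_mul, map_pow, map_zero, map_one, hff, it47, it69, it70, it71]) <;> linear_combination (0 : K) * h2
  · (try simp only [map_add, map_mul, map_pow, map_zero, map_one, hff, it47, it69, it70, it71]) <;> linear_combination (0 : K) * h2
  · (try simp only [map_add, map_mul, map_pow, map_zero, map_one, hff, it47, it69, it70, it71]) <;> linear_combination (0 : K) * h2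
  · (try simp only [map_add, map_mul, map_pow, map_zero, map_one, hff, it47, it69, it70, it71]) <;> linear_combination (0 : K) * h2
  · (try simp only [map_add, map_mul, map_pow, map_zero, map_one, hff, it47, it69, it70, it71]) <;> linear_combination (0 : K) * h2
  · (try simp only [map_add, map_mul, map_pow, map_zero, map_one, hff, it47, it69, it70, it71]) <;> linear_combination (0 : K) * h2
  · (try simp only [map_add, map_mul, map_pow, map_zero, map_one, hff, it47, it69, it70, it71]) <;> linear_combination (0 : K) * h2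
  · (try simp only [map_add, map_mul, map_pow, map_zero, map_one, hff, it47, it69, it70, it71]) <;> linear_combination (0 : K) * h2
  · (try simp only [map_add, map_mul, map_pow, map_zero, map_one, hff, it47, it69, it70, it71]) <;> linear_combination (0 : K) * h2
  · (try simp only [map_add, map_mul, map_pow, map_zero, map_one, hff, it47, it69, it70, it71]) <;> linear_combination (0 : K) * h2
  · (try simp only [map_add, map_mul, map_pow, map_zero, map_one, hff, it47, it69, it70, it71]) <;> linear_combination (0 : K) * h2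
  · (try simp only [map_add, map_mul, map_pow, map_zero, map_one, hff, it47, it69, it70, it71]) <;> linear_combination (0 : K) * h2
  · (try simp only [map_add, map_mul, map_pow, map_zero, map_one, hff, it47, it69, it70, it71]) <;> linear_combination (0 : K) * h2
  · (try simp only [map_add, map_mul, map_pow, map_zero, map_one, hff, it47, it69, it70, it71]) <;> linear_combination (0 : K) * h2
  · (try simp only [map_add, map_mul, map_pow, map_zero, map_one, hff, it47, it69, it70, it71]) <;> linear_combination (0 : K) * h2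
  · (try simp only [map_add, map_mul, map_pow, map_zero, map_one, hff, it47, it69, it70, it71]) <;> linear_combination (l36*(f y)) * h2
  · (try simp only [map_add, map_mul, map_pow, map_zero, map_one, hff, it47, it69, it70, it71]) <;> linear_combination (0 : K) * h2
  · (try simp only [map_add, map_mul, map_pow, map_zero, map_one, hff, it47, it69, it70, it71]) <;> linear_combination (0 : K) * h2
  · (try simp only [map_add, map_mul, map_pow, map_zero, map_one, hff, it47, it69, it70, it71]) <;> linear_combination (0 : K) * h2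

theorem nE_LD_1_1_1_1_1_1_1_1_1_1_1_1_1_1_1_1 {l36 t47 t69 t70 t71 : K} (hff : ∀ t, f (f t) = t) (it47 : f t47 = t47) (it69 : f t69 = t69) (it70 : f t70 = t70) (it71 : f t71 = t71) :
    nR [3, 2] * E f (l36) 0 0 0 0 0 0 0 0 (t47) 0 0 0 0 0 0 0 0 0 0 0 (t69) (t70) (t71) * (nR [3, 2])⁻¹ = E f 0 (l36) 0 0 0 0 0 0 0 0 0 0 0 0 (t69) 0 0 0 (t47) 0 0 0 (t70) (t71 + t47*t69) := by
  have h2 : (2 : K) = 0 := CharTwo.two_eq_zero
  have c36 := fun t : K => nR_at (l := [3, 2]) (s := 36) (m := 37) (by decide +kernel) t
  have c47 := fun t : K => nR_at (l := [3, 2]) (s := 47) (m := 63) (by decide +kernel) t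
  have c56 := fun t : K => nR_at (l := [3, 2]) (s := 56) (m := 42) (by decide +kernel) t
  have c69 := fun t : K => nR_at (l := [3, 2]) (s := 69) (m := 53) (by decide +kernel) t
  have c70 := fun t : K => nR_at (l := [3, 2]) (s := 70) (m := 70) (by decide +kernel) t
  have c71 := fun t : K => nR_at (l := [3, 2]) (s := 71) (m := 71) (by decide +kernel) t
  unfold E
  rw [conj_W]
  simp only [map_zero, zero_mul, mul_zero, add_zero, zero_add, conj_x0, one_mul, c36, c47, c56, c69, c70, c71]
  rw [← W_zero (K := K)]
  simp only [xW_37, xW_42, xW_53, xW_63, xW_70, xW_71, zero_mul, mul_zero, add_zero, zero_add]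
  first
    | done
    | apply W_congr
      · (try simp only [map_add, map_mul, map_pow, map_zero, map_one, hff, it47, it69, it70, it71]) <;> linear_combination (0 : K) * h2
      · (try simp only [map_add, map_mul, map_pow, map_zero, map_one, hff, it47, it69, it70, it71]) <;> linear_combination (0 : K) * h2
      · (try simp only [map_add, map_mul, map_pow, map_zero, map_one, hff, it47, it69, it70, it71]) <;> linear_combination (0 : K) * h2
      · (try simp only [map_add, map_mul, map_pow, map_zero, map_one, hff, it47, it69, it70, it71]) <;> linear_combination (0 : K) * h2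
      · (try simp only [map_add, map_mul, map_pow, map_zero, map_one, hff, it47, it69, it70, it71]) <;> linear_combination (0 : K) * h2
      · (try simp only [map_add, map_mul, map_pow, map_zero, map_one, hff, it47, it69, it70, it71]) <;> linear_combination (0 : K) * h2
      · (try simp only [map_add, map_mul, map_pow, map_zero, map_one, hff, it47, it69, it70, it71]) <;> linear_combination (0 : K) * h2
      · (try simp only [map_add, map_mul, map_pow, map_zero, map_one, hff, it47, it69, it70, it71]) <;> linear_combination (0 : K) * h2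
      · (try simp only [map_add, map_mul, map_pow, map_zero, map_one, hff, it47, it69, it70, it71]) <;> linear_combination (0 : K) * h2
      · (try simp only [map_add, map_mul, map_pow, map_zero, map_one, hff, it47, it69, it70, it71]) <;> linear_combination (0 : K) * h2
      · (try simp only [map_add, map_mul, map_pow, map_zero, map_one, hff, it47, it69, it70, it71]) <;> linear_combination (0 : K) * h2
      · (try simp only [map_add, map_mul, map_pow, map_zero, map_one, hff, it47, it69, it70, it71]) <;> linear_combination (0 : K) * h2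
      · (try simp only [map_add, map_mul, map_pow, map_zero, map_one, hff, it47, it69, it70, it71]) <;> linear_combination (0 : K) * h2
      · (try simp only [map_add, map_mul, map_pow, map_zero, map_one, hff, it47, it69, it70, it71]) <;> linear_combination (0 : K) * h2
      · (try simp only [map_add, map_mul, map_pow, map_zero, map_one, hff, it47, it69, it70, it71]) <;> linear_combination (0 : K) * h2
      · (try simp only [map_add, map_mul, map_pow, map_zero, map_one, hff, it47, it69, it70, it71]) <;> linear_combination (0 : K) * h2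
      · (try simp only [map_add, map_mul, map_pow, map_zero, map_one, hff, it47, it69, it70, it71]) <;> linear_combination (0 : K) * h2
      · (try simp only [map_add, map_mul, map_pow, map_zero, map_one, hff, it47, it69, it70, it71]) <;> linear_combination (0 : K) * h2
      · (try simp only [map_add, map_mul, map_pow, map_zero, map_one, hff, it47, it69, it70, it71]) <;> linear_combination (0 : K) * h2
      · (try simp only [map_add, map_mul, map_pow, map_zero, map_one, hff, it47, it69, it70, it71]) <;> linear_combination (0 : K) * h2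
      · (try simp only [map_add, map_mul, map_pow, map_zero, map_one, hff, it47, it69, it70, it71]) <;> linear_combination (0 : K) * h2
      · (try simp only [map_add, map_mul, map_pow, map_zero, map_one, hff, it47, it69, it70, it71]) <;> linear_combination (0 : K) * h2
      · (try simp only [map_add, map_mul, map_pow, map_zero, map_one, hff, it47, it69, it70, it71]) <;> linear_combination (0 : K) * h2
      · (try simp only [map_add, map_mul, map_pow, map_zero, map_one, hff, it47, it69, it70, it71]) <;> linear_combination (0 : K) * h2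
      · (try simp only [map_add, map_mul, map_pow, map_zero, map_one, hff, it47, it69, it70, it71]) <;> linear_combination (0 : K) * h2
      · (try simp only [map_add, map_mul, map_pow, map_zero, map_one, hff, it47, it69, it70, it71]) <;> linear_combination (0 : K) * h2
      · (try simp only [map_add, map_mul, map_pow, map_zero, map_one, hff, it47, it69, it70, it71]) <;> linear_combination (0 : K) * h2
      · (try simp only [map_add, map_mul, map_pow, map_zero, map_one, hff, it47, it69, it70, it71]) <;> linear_combination (0 : K) * h2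
      · (try simp only [map_add, map_mul, map_pow, map_zero, map_one, hff, it47, it69, it70, it71]) <;> linear_combination (0 : K) * h2
      · (try simp only [map_add, map_mul, map_pow, map_zero, map_one, hff, it47, it69, it70, it71]) <;> linear_combination (0 : K) * h2
      · (try simp only [map_add, map_mul, map_pow, map_zero, map_one, hff, it47, it69, it70, it71]) <;> linear_combination (0 : K) * h2
      · (try simp only [map_add, map_mul, map_pow, map_zero, map_one, hff, it47, it69, it70, it71]) <;> linear_combination (0 : K) * h2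
      · (try simp only [map_add, map_mul, map_pow, map_zero, map_one, hff, it47, it69, it70, it71]) <;> linear_combination (0 : K) * h2
      · (try simp only [map_add, map_mul, map_pow, map_zero, map_one, hff, it47, it69, it70, it71]) <;> linear_combination (0 : K) * h2
      · (try simp only [map_add, map_mul, map_pow, map_zero, map_one, hff, it47, it69, it70, it71]) <;> linear_combination (0 : K) * h2
      · (try simp only [map_add, map_mul, map_pow, map_zero, map_one, hff, it47, it69, it70, it71]) <;> linear_combination (0 : K) * h2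

theorem LD_1_1_1_1_1_1_1_1_1_1_1_1_1_1_1_1_1 {l37 t53 t63 t70 t71 : K} (d : Dt f) (hp37 : l37 ≠ 0) (hm : E f 0 (l37) 0 0 0 0 0 0 0 0 0 0 0 0 (t53) 0 0 0 (t63) 0 0 0 (t70) (t71) ∈ (sc f).G1) (hs : E f 0 (l37) 0 0 0 0 0 0 0 0 0 0 0 0 (t53) 0 0 0 (t63) 0 0 0 (t70) (t71) * E f 0 (l37) 0 0 0 0 0 0 0 0 0 0 0 0 (t53) 0 0 0 (t63) 0 0 0 (t70) (t71) = 1) : Res f (E f 0 (l37) 0 0 0 0 0 0 0 0 0 0 0 0 (t53) 0 0 0 (t63) 0 0 0 (t70) (t71)) := by
  exact U4 d hp37 hm hs

theorem LD_1_1_1_1_1_1_1_1_1_1_1_1_1_1_1_1 {l36 t47 t69 t70 t71 : K} (d : Dt f) (hp36 : l36 ≠ 0) (hm : E f (l36) 0 0 0 0 0 0 0 0 (t47) 0 0 0 0 0 0 0 0 0 0 0 (t69) (t70) (t71) ∈ (sc f).G1) (hs : E f (l36) 0 0 0 0 0 0 0 0 (t47) 0 0 0 0 0 0 0 0 0 0 0 (t69) (t70) (t71) * E f (l36) 0 0 0 0 0 0 0 0 (t47) 0 0 0 0 0 0 0 0 0 0 0 (t69) (t70) (t71) = 1) : Res f (E f (l36) 0 0 0 0 0 0 0 0 (t47) 0 0 0 0 0 0 0 0 0 0 0 (t69) (t70) (t71)) := by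
  obtain ⟨it39, it44, it46, it47, it51, it53, it60, it63, it65, it69, it70, it71⟩ := inv_of_mem d hm
  have c : Cj f (E f (l36) 0 0 0 0 0 0 0 0 (t47) 0 0 0 0 0 0 0 0 0 0 0 (t69) (t70) (t71)) (E f 0 (l36) 0 0 0 0 0 0 0 0 0 0 0 0 (t69) 0 0 0 (t47) 0 0 0 (t70) (t71 + t47*t69)) := cjN f (nR_mem f [3, 2]) (nE_LD_1_1_1_1_1_1_1_1_1_1_1_1_1_1_1_1 d.hff it47 it69 it70 it71)
  exact Res.of_cj f c (LD_1_1_1_1_1_1_1_1_1_1_1_1_1_1_1_1_1 d hp36 (c.mem f hm) (c.sq f hs))

theorem LD_1_1_1_1_1_1_1_1_1_1_1_1_1_1_1 {l36 l66 t47 t69 t70 t71 : K} (d : Dt f) (hp36 : l36 ≠ 0) (hm : E f (l36) 0 0 0 0 0 0 0 0 (t47) 0 0 0 0 0 0 0 0 0 0 (l66) (t69) (t70) (t71) ∈ (sc f).G1) (hs : E f (l36) 0 0 0 0 0 0 0 0 (t47) 0 0 0 0 0 0 0 0 0 0 (l66) (t69) (t70) (t71) * E f (l36) 0 0 0 0 0 0 0 0 (t47) 0 0 0 0 0 0 0 0 0 0 (l66) (t69) (t70) (t71) = 1) : Res f (E f (l36) 0 0 0 0 0 0 0 0 (t47) 0 0 0 0 0 0 0 0 0 0 (l66) (t69) (t70) (t71)) := by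
  obtain ⟨it39, it44, it46, it47, it51, it53, it60, it63, it65, it69, it70, it71⟩ := inv_of_mem d hm
  obtain ⟨y, rfl⟩ := solve_mul (fne (f := f) hp36) l66
  have c : Cj f (E f (l36) 0 0 0 0 0 0 0 0 (t47) 0 0 0 0 0 0 0 0 0 0 (((f l36)) * y) (t69) (t70) (t71)) (E f (l36) 0 0 0 0 0 0 0 0 (t47) 0 0 0 0 0 0 0 0 0 0 0 (t69) (t70) (t71)) := cjS f (E_mem_G1 d (map_zero f) (map_zero f) (map_zero f) (map_zero f) (map_zero f) (map_zero f) (map_zero f) (map_zero f) (map_zero f) (map_zero f) (map_zero f) (map_zero f) 0 0 0 0 0 0 0 0 0 0 (y) 0) (st_LD_1_1_1_1_1_1_1_1_1_1_1_1_1_1_1 d.hff it47 it69 it70 it71)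
  exact Res.of_cj f c (LD_1_1_1_1_1_1_1_1_1_1_1_1_1_1_1_1 d hp36 (c.mem f hm) (c.sq f hs))

theorem LD_1_1_1_1_1_1_1_1_1_1_1_1_1_1 {l36 l66 t47 t65 t69 t70 t71 : K} (d : Dt f) (hp36 : l36 ≠ 0) (hm : E f (l36) 0 0 0 0 0 0 0 0 (t47) 0 0 0 0 0 0 0 0 0 (t65) (l66) (t69) (t70) (t71) ∈ (sc f).G1) (hs : E f (l36) 0 0 0 0 0 0 0 0 (t47) 0 0 0 0 0 0 0 0 0 (t65) (l66) (t69) (t70) (t71) * E f (l36) 0 0 0 0 0 0 0 0 (t47) 0 0 0 0 0 0 0 0 0 (t65) (l66) (t69) (t70) (t71) = 1) : Res f (E f (l36) 0 0 0 0 0 0 0 0 (t47) 0 0 0 0 0 0 0 0 0 (t65) (l66) (t69) (t70) (t71)) := by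
  obtain ⟨it39, it44, it46, it47, it51, it53, it60, it63, it65, it69, it70, it71⟩ := inv_of_mem d hm
  obtain ⟨y, rfl⟩ := solve_tr d hp36 it65
  have c : Cj f (E f (l36) 0 0 0 0 0 0 0 0 (t47) 0 0 0 0 0 0 0 0 0 ((l36) * f y + f (l36) * y) (l66) (t69) (t70) (t71)) (E f (l36) 0 0 0 0 0 0 0 0 (t47) 0 0 0 0 0 0 0 0 0 0 (l66) (t69) (t70) (t71)) := cjS f (E_mem_G1 d (map_zero f) (map_zero f) (map_zero f) (map_zero f) (map_zero f) (map_zero f) (map_zero f) (map_zero f) (map_zero f) (map_zero f) (map_zero f) (map_zero f) 0 0 0 0 0 0 0 0 0 (y) 0 0) (st_LD_1_1_1_1_1_1_1_1_1_1_1_1_1_1 d.hff it47 it69 it70 it71)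
  exact Res.of_cj f c (LD_1_1_1_1_1_1_1_1_1_1_1_1_1_1_1 d hp36 (c.mem f hm) (c.sq f hs))

theorem LD_1_1_1_1_1_1_1_1_1_1_1_1_1 {l36 l54 l66 t47 t65 t69 t70 t71 : K} (d : Dt f) (hp36 : l36 ≠ 0) (hm : E f (l36) 0 0 0 0 0 0 0 0 (t47) 0 0 0 0 0 (l54) 0 0 0 (t65) (l66) (t69) (t70) (t71) ∈ (sc f).G1) (hs : E f (l36) 0 0 0 0 0 0 0 0 (t47) 0 0 0 0 0 (l54) 0 0 0 (t65) (l66) (t69) (t70) (t71) * E f (l36) 0 0 0 0 0 0 0 0 (t47) 0 0 0 0 0 (l54) 0 0 0 (t65) (l66) (t69) (t70) (t71) = 1) : Res f (E f (l36) 0 0 0 0 0 0 0 0 (t47) 0 0 0 0 0 (l54) 0 0 0 (t65) (l66) (t69) (t70) (t71)) := by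
  obtain ⟨it39, it44, it46, it47, it51, it53, it60, it63, it65, it69, it70, it71⟩ := inv_of_mem d hm
  have h2 : (2 : K) = 0 := CharTwo.two_eq_zero
  have h3 : (l36) * f l54 + l54 * f (l36) = 0 := by
    have h := hs
    unfold E at h
    rw [W_mul, ← W_zero] at h
    obtain ⟨-, -, -, -, -, -, -, -, -, -, -, -, -, -, -, -, -, -, -, -, -, -, -, -, -, -, -, -, -, h65, -, -, -, -, -, -⟩ := W_inj h
    try simp only [map_zero] at h65
    linear_combination (-t65 - l54*(f l36)) * h2 + h65
  obtain ⟨w, hw, rfl⟩ := solve_sq hp36 d.hff h3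
  have c : Cj f (E f (l36) 0 0 0 0 0 0 0 0 (t47) 0 0 0 0 0 ((l36) * w) 0 0 0 (t65) (l66) (t69) (t70) (t71)) (E f (l36) 0 0 0 0 0 0 0 0 (t47) 0 0 0 0 0 0 0 0 0 (t65 + l36*w*(f l36)) (l66) (t69) (t70) (t71)) := cjS f (E_mem_G1 d (map_zero f) (map_zero f) (map_zero f) (map_zero f) (map_zero f) hw (map_zero f) (map_zero f) (map_zero f) (map_zero f) (map_zero f) (map_zero f) 0 0 0 0 0 0 0 0 0 0 0 0) (st_LD_1_1_1_1_1_1_1_1_1_1_1_1_1 d.hff it47 it65 it69 it70 it71 hw)
  exact Res.of_cj f c (LD_1_1_1_1_1_1_1_1_1_1_1_1_1_1 d hp36 (c.mem f hm) (c.sq f hs))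

theorem LD_1_1_1_1_1_1_1_1_1_1_1_1 {l36 l54 l66 t47 t63 t65 t69 t70 t71 : K} (d : Dt f) (hp36 : l36 ≠ 0) (hm : E f (l36) 0 0 0 0 0 0 0 0 (t47) 0 0 0 0 0 (l54) 0 0 (t63) (t65) (l66) (t69) (t70) (t71) ∈ (sc f).G1) (hs : E f (l36) 0 0 0 0 0 0 0 0 (t47) 0 0 0 0 0 (l54) 0 0 (t63) (t65) (l66) (t69) (t70) (t71) * E f (l36) 0 0 0 0 0 0 0 0 (t47) 0 0 0 0 0 (l54) 0 0 (t63) (t65) (l66) (t69) (t70) (t71) = 1) : Res f (E f (l36) 0 0 0 0 0 0 0 0 (t47) 0 0 0 0 0 (l54) 0 0 (t63) (t65) (l66) (t69) (t70) (t71)) := by
  obtain ⟨it39, it44, it46, it47, it51, it53, it60, it63, it65, it69, it70, it71⟩ := inv_of_mem d hm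
  obtain ⟨y, rfl⟩ := solve_tr d hp36 it63
  have c : Cj f (E f (l36) 0 0 0 0 0 0 0 0 (t47) 0 0 0 0 0 (l54) 0 0 ((l36) * f y + f (l36) * y) (t65) (l66) (t69) (t70) (t71)) (E f (l36) 0 0 0 0 0 0 0 0 (t47) 0 0 0 0 0 (l54) 0 0 0 (t65) (l66) (t69) (t70) (t71 + l54*(f y) + y*(f l54))) := cjS f (E_mem_G1 d (map_zero f) (map_zero f) (map_zero f) (map_zero f) (map_zero f) (map_zero f) (map_zero f) (map_zero f) (map_zero f) (map_zero f) (map_zero f) (map_zero f) 0 0 0 0 0 0 0 0 (y) 0 0 0) (st_LD_1_1_1_1_1_1_1_1_1_1_1_1 d.hff it47 it65 it69 it70 it71)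
  exact Res.of_cj f c (LD_1_1_1_1_1_1_1_1_1_1_1_1_1 d hp36 (c.mem f hm) (c.sq f hs))

theorem LD_1_1_1_1_1_1_1_1_1_1_1 {l36 l52 l54 l66 t47 t63 t65 t69 t70 t71 : K} (d : Dt f) (hp36 : l36 ≠ 0) (hm : E f (l36) 0 0 0 0 0 0 0 0 (t47) 0 0 0 (l52) 0 (l54) 0 0 (t63) (t65) (l66) (t69) (t70) (t71) ∈ (sc f).G1) (hs : E f (l36) 0 0 0 0 0 0 0 0 (t47) 0 0 0 (l52) 0 (l54) 0 0 (t63) (t65) (l66) (t69) (t70) (t71) * E f (l36) 0 0 0 0 0 0 0 0 (t47) 0 0 0 (l52) 0 (l54) 0 0 (t63) (t65) (l66) (t69) (t70) (t71) = 1) : Res f (E f (l36) 0 0 0 0 0 0 0 0 (t47) 0 0 0 (l52) 0 (l54) 0 0 (t63) (t65) (l66) (t69) (t70) (t71)) := by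
  obtain ⟨it39, it44, it46, it47, it51, it53, it60, it63, it65, it69, it70, it71⟩ := inv_of_mem d hm
  have h2 : (2 : K) = 0 := CharTwo.two_eq_zero
  have h3 : (l36) * f l52 + l52 * f (l36) = 0 := by
    have h := hs
    unfold E at h
    rw [W_mul, ← W_zero] at h
    obtain ⟨-, -, -, -, -, -, -, -, -, -, -, -, -, -, -, -, -, -, -, -, -, -, -, -, -, -, -, h63, -, -, -, -, -, -, -, -⟩ := W_inj h
    try simp only [map_zero] at h63
    linear_combination (-t63 - l52*(f l36)) * h2 + h63
  obtain ⟨w, hw, rfl⟩ := solve_sq hp36 d.hff h3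
  have c : Cj f (E f (l36) 0 0 0 0 0 0 0 0 (t47) 0 0 0 ((l36) * w) 0 (l54) 0 0 (t63) (t65) (l66) (t69) (t70) (t71)) (E f (l36) 0 0 0 0 0 0 0 0 (t47) 0 0 0 0 0 (l54) 0 0 (t63 + l36*w*(f l36)) (t65) (l66) (t69) (t70) (t71 + t65*w)) := cjS f (E_mem_G1 d (map_zero f) (map_zero f) (map_zero f) (map_zero f) hw (map_zero f) (map_zero f) (map_zero f) (map_zero f) (map_zero f) (map_zero f) (map_zero f) 0 0 0 0 0 0 0 0 0 0 0 0) (st_LD_1_1_1_1_1_1_1_1_1_1_1 d.hff it47 it63 it65 it69 it70 it71 hw)
  exact Res.of_cj f c (LD_1_1_1_1_1_1_1_1_1_1_1_1 d hp36 (c.mem f hm) (c.sq f hs))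

theorem LD_1_1_1_1_1_1_1_1_1_1 {l36 l52 l54 l55 l66 t47 t63 t65 t69 t70 t71 : K} (d : Dt f) (hp36 : l36 ≠ 0) (hm : E f (l36) 0 0 0 0 0 0 0 0 (t47) 0 0 0 (l52) 0 (l54) (l55) 0 (t63) (t65) (l66) (t69) (t70) (t71) ∈ (sc f).G1) (hs : E f (l36) 0 0 0 0 0 0 0 0 (t47) 0 0 0 (l52) 0 (l54) (l55) 0 (t63) (t65) (l66) (t69) (t70) (t71) * E f (l36) 0 0 0 0 0 0 0 0 (t47) 0 0 0 (l52) 0 (l54) (l55) 0 (t63) (t65) (l66) (t69) (t70) (t71) = 1) : Res f (E f (l36) 0 0 0 0 0 0 0 0 (t47) 0 0 0 (l52) 0 (l54) (l55) 0 (t63) (t65) (l66) (t69) (t70) (t71)) := by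
  have h2 : (2 : K) = 0 := CharTwo.two_eq_zero
  have hz : l55 = 0 := by
    have h := hs
    unfold E at h
    rw [W_mul, ← W_zero] at h
    obtain ⟨-, -, -, -, -, -, -, -, -, -, -, -, -, -, -, -, -, -, -, -, -, -, -, -, -, -, -, -, -, -, h66, -, -, -, -, -⟩ := W_inj h
    try simp only [map_zero] at h66
    have key : l55*(f l36) = 0 := by linear_combination (-l66 - l55*(f l36)) * h2 + h66
    simpa [mul_eq_zero, map_eq_zero, pow_eq_zero_iff, hp36] using key
  subst hz
  exact LD_1_1_1_1_1_1_1_1_1_1_1 d hp36 hm hs

theorem LD_1_1_1_1_1_1_1_1_1 {l36 l52 l54 l55 l66 t47 t53 t63 t65 t69 t70 t71 : K} (d : Dt f) (hp36 : l36 ≠ 0) (hm : E f (l36) 0 0 0 0 0 0 0 0 (t47) 0 0 0 (l52) (t53) (l54) (l55) 0 (t63) (t65) (l66) (t69) (t70) (t71) ∈ (sc f).G1) (hs : E f (l36) 0 0 0 0 0 0 0 0 (t47) 0 0 0 (l52) (t53) (l54) (l55) 0 (t63) (t65) (l66) (t69) (t70) (t71) * E f (l36) 0 0 0 0 0 0 0 0 (t47) 0 0 0 (l52) (t53) (l54) (l55) 0 (t63) (t65) (l66) (t69) (t70) (t71) = 1) : Res f (E f (l36) 0 0 0 0 0 0 0 0 (t47) 0 0 0 (l52) (t53) (l54) (l55) 0 (t63) (t65)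 (l66) (t69) (t70) (t71)) := by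
  have h2 : (2 : K) = 0 := CharTwo.two_eq_zero
  have hz : t53 = 0 := by
    have h := hs
    unfold E at h
    rw [W_mul, ← W_zero] at h
    obtain ⟨-, -, -, -, -, -, -, -, -, -, -, -, -, -, -, -, -, -, h54, -, -, -, -, -, -, -, -, -, -, -, -, -, -, -, -, -⟩ := W_inj h
    try simp only [map_zero] at h54
    have key : l36*t53 = 0 := by linear_combination (-l54) * h2 + h54
    simpa [mul_eq_zero, map_eq_zero, pow_eq_zero_iff, hp36] using key
  subst hz
  exact LD_1_1_1_1_1_1_1_1_1_1 d hp36 hm hs

theorem LD_1_1_1_1_1_1_1_1 {l36 l49 l52 l54 l55 l66 t47 t53 t63 t65 t69 t70 t71 : K} (d : Dt f) (hp36 : l36 ≠ 0) (hm : E f (l36) 0 0 0 0 0 0 0 0 (t47) 0 (l49) 0 (l52) (t53) (l54) (l55) 0 (t63) (t65) (l66) (t69) (t70) (t71) ∈ (sc f).G1) (hs : E f (l36) 0 0 0 0 0 0 0 0 (t47) 0 (l49) 0 (l52) (t53) (l54) (l55) 0 (t63) (t65) (l66) (t69) (t70) (t71) * E f (l36) 0 0 0 0 0 0 0 0 (t47) 0 (l49) 0 (l52) (t53) (l54) (l55) 0 (t63) (t65) (l66) (t69) (t70) (t71) = 1) : Res f (E f (l36) 0 0 0 0 0 0 0 0 (t47) 0 (l49) 0 (l52) (t53) (l54) (l55) 0 (t63) (t65)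 (l66) (t69) (t70) (t71)) := by
  obtain ⟨it39, it44, it46, it47, it51, it53, it60, it63, it65, it69, it70, it71⟩ := inv_of_mem d hm
  obtain ⟨y, rfl⟩ := solve_mul hp36 l49
  have c : Cj f (E f (l36) 0 0 0 0 0 0 0 0 (t47) 0 ((l36) * y) 0 (l52) (t53) (l54) (l55) 0 (t63) (t65) (l66) (t69) (t70) (t71)) (E f (l36) 0 0 0 0 0 0 0 0 (t47) 0 0 0 (l52) (t53) (l54) (l55) 0 (t63) (t65) (l66) (t69) (t70) (t71 + l66*(f y) + y*(f l66))) := cjS f (E_mem_G1 d (map_zero f) (map_zero f) (map_zero f) (map_zero f) (map_zero f) (map_zero f) (map_zero f) (map_zero f) (map_zero f) (map_zero f) (map_zero f) (map_zero f) 0 0 0 0 0 0 (y) 0 0 0 0 0) (st_LD_1_1_1_1_1_1_1_1 d.hff it47 it53 it63 it65 it69 it70 it71)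
  exact Res.of_cj f c (LD_1_1_1_1_1_1_1_1_1 d hp36 (c.mem f hm) (c.sq f hs))

theorem LD_1_1_1_1_1_1_1 {l36 l49 l52 l54 l55 l66 t47 t53 t60 t63 t65 t69 t70 t71 : K} (d : Dt f) (hp36 : l36 ≠ 0) (hm : E f (l36) 0 0 0 0 0 0 0 0 (t47) 0 (l49) 0 (l52) (t53) (l54) (l55) (t60) (t63) (t65) (l66) (t69) (t70) (t71) ∈ (sc f).G1) (hs : E f (l36) 0 0 0 0 0 0 0 0 (t47) 0 (l49) 0 (l52) (t53) (l54) (l55) (t60) (t63) (t65) (l66) (t69) (t70) (t71) * E f (l36) 0 0 0 0 0 0 0 0 (t47) 0 (l49) 0 (l52) (t53) (l54) (l55) (t60) (t63) (t65) (l66) (t69) (t70) (t71) = 1) : Res f (E f (l36) 0 0 0 0 0 0 0 0 (t47) 0 (l49) 0 (l52) (t53) (l54) (l55) (t60) (t63) (t65) (l66) (t69) (t70) (t71)) := by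
  obtain ⟨it39, it44, it46, it47, it51, it53, it60, it63, it65, it69, it70, it71⟩ := inv_of_mem d hm
  obtain ⟨y, rfl⟩ := solve_tr d hp36 it60
  have c : Cj f (E f (l36) 0 0 0 0 0 0 0 0 (t47) 0 (l49) 0 (l52) (t53) (l54) (l55) ((l36) * f y + f (l36) * y) (t63) (t65) (l66) (t69) (t70) (t71)) (E f (l36) 0 0 0 0 0 0 0 0 (t47) 0 (l49) 0 (l52) (t53) (l54 + t47*y) (l55) 0 (t63) (t65 + l36*t47*(f y) + t47*y*(f l36)) (l66 + l49*(f y)) (t69 + l52*(f y) + y*(f l52)) (t70 + l54*(f y) + y*(f l54) + l36*t53*(f y) + t47*y*(f y) + t53*y*(f l36)) (t71 + l52*t47*(f y) + t47*y*(f l52))) := cjS f (E_mem_G1 d (map_zero f) (map_zero f) (map_zero f) (map_zero f) (map_zero f) (map_zero f) (map_zero f) (map_zero f) (map_zero f) (map_zero f) (map_zero f) (map_zero f) 0 0 0 0 0 (y) 0 0 0 0 0 0) (st_LD_1_1_1_1_1_1_1 d.hff it47 it53 it63 it65 it69 it70 it71)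
  exact Res.of_cj f c (LD_1_1_1_1_1_1_1_1 d hp36 (c.mem f hm) (c.sq f hs))

theorem LD_1_1_1_1_1_1 {l36 l45 l49 l52 l54 l55 l66 t47 t53 t60 t63 t65 t69 t70 t71 : K} (d : Dt f) (hp36 : l36 ≠ 0) (hm : E f (l36) 0 0 0 0 0 0 (l45) 0 (t47) 0 (l49) 0 (l52) (t53) (l54) (l55) (t60) (t63) (t65) (l66) (t69) (t70) (t71) ∈ (sc f).G1) (hs : E f (l36) 0 0 0 0 0 0 (l45) 0 (t47) 0 (l49) 0 (l52) (t53) (l54) (l55) (t60) (t63) (t65) (l66) (t69) (t70) (t71) * E f (l36) 0 0 0 0 0 0 (l45) 0 (t47) 0 (l49) 0 (l52) (t53) (l54) (l55) (t60) (t63) (t65) (l66) (t69) (t70) (t71) = 1) : Res f (E f (l36) 0 0 0 0 0 0 (l45) 0 (t47) 0 (l49) 0 (l52) (t53) (l54) (l55) (t60) (t63) (t65) (l66) (t69) (t70) (t71)) := by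
  obtain ⟨it39, it44, it46, it47, it51, it53, it60, it63, it65, it69, it70, it71⟩ := inv_of_mem d hm
  have h2 : (2 : K) = 0 := CharTwo.two_eq_zero
  have h3 : (l36) * f l45 + l45 * f (l36) = 0 := by
    have h := hs
    unfold E at h
    rw [W_mul, ← W_zero] at h
    obtain ⟨-, -, -, -, -, -, -, -, -, -, -, -, -, -, -, -, -, -, -, -, -, -, -, -, h60, -, -, -, -, -, -, -, -, -, -, -⟩ := W_inj h
    try simp only [map_zero] at h60
    linear_combination (-t60 - l45*(f l36)) * h2 + h60
  obtain ⟨w, hw, rfl⟩ := solve_sq hp36 d.hff h3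
  have c : Cj f (E f (l36) 0 0 0 0 0 0 ((l36) * w) 0 (t47) 0 (l49) 0 (l52) (t53) (l54) (l55) (t60) (t63) (t65) (l66) (t69) (t70) (t71)) (E f (l36) 0 0 0 0 0 0 0 0 (t47) 0 (l49) 0 (l52) (t53 + t47*w) (l54) (l55 + l49*w) (t60 + l36*w*(f l36)) (t63) (t65 + l36*t47*w*(f l36)) (l66) (t69 + t63*w) (t70 + t65*w + l36*t53*w*(f l36) + l36*t47*w^2*(f l36)) (t71 + l49*w*(f l49))) := cjS f (E_mem_G1 d (map_zero f) hw (map_zero f) (map_zero f) (map_zero f) (map_zero f) (map_zero f) (map_zero f) (map_zero f) (map_zero f) (map_zero f) (map_zero f) 0 0 0 0 0 0 0 0 0 0 0 0) (st_LD_1_1_1_1_1_1 d.hff it47 it53 it60 it63 it65 it69 it70 it71 hw)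
  exact Res.of_cj f c (LD_1_1_1_1_1_1_1 d hp36 (c.mem f hm) (c.sq f hs))

theorem LD_1_1_1_1_1 {l36 l45 l49 l52 l54 l55 l66 t47 t51 t53 t60 t63 t65 t69 t70 t71 : K} (d : Dt f) (hp36 : l36 ≠ 0) (hm : E f (l36) 0 0 0 0 0 0 (l45) 0 (t47) 0 (l49) (t51) (l52) (t53) (l54) (l55) (t60) (t63) (t65) (l66) (t69) (t70) (t71) ∈ (sc f).G1) (hs : E f (l36) 0 0 0 0 0 0 (l45) 0 (t47) 0 (l49) (t51) (l52) (t53) (l54) (l55) (t60) (t63) (t65) (l66) (t69) (t70) (t71) * E f (l36) 0 0 0 0 0 0 (l45) 0 (t47) 0 (l49) (t51) (l52) (t53) (l54) (l55) (t60) (t63) (t65) (l66) (t69) (t70) (t71) = 1) : Res f (E f (l36) 0 0 0 0 0 0 (l45) 0 (t47) 0 (l49) (t51) (l52) (t53) (l54) (l55) (t60) (t63) (t65) (l66) (t69) (t70) (t71)) := by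
  have h2 : (2 : K) = 0 := CharTwo.two_eq_zero
  have hz : t51 = 0 := by
    have h := hs
    unfold E at h
    rw [W_mul, ← W_zero] at h
    obtain ⟨-, -, -, -, -, -, -, -, -, -, -, -, -, -, -, -, h52, -, -, -, -, -, -, -, -, -, -, -, -, -, -, -, -, -, -, -⟩ := W_inj h
    try simp only [map_zero] at h52
    have key : l36*t51 = 0 := by linear_combination (-l52) * h2 + h52
    simpa [mul_eq_zero, map_eq_zero, pow_eq_zero_iff, hp36] using key
  subst hz
  exact LD_1_1_1_1_1_1 d hp36 hm hs

theorem LD_1_1_1_1 {l36 l45 l48 l49 l52 l54 l55 l66 t47 t51 t53 t60 t63 t65 t69 t70 t71 : K} (d : Dt f) (hp36 : l36 ≠ 0) (hm : E f (l36) 0 0 0 0 0 0 (l45) 0 (t47) (l48) (l49) (t51) (l52) (t53) (l54) (l55) (t60) (t63) (t65) (l66) (t69) (t70) (t71) ∈ (sc f).G1) (hs : E f (l36) 0 0 0 0 0 0 (l45) 0 (t47) (l48) (l49) (t51) (l52) (t53) (l54) (l55) (t60) (t63) (t65) (l66) (t69) (t70) (t71) * E f (l36) 0 0 0 0 0 0 (l45) 0 (t47) (l48) (l49) (t51) (l52) (t53) (l54) (l55) (t60) (t63) (t65) (l66) (t69) (t70) (t71) = 1) : Res f (E f (l36) 0 0 0 0 0 0 (l45) 0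 (t47) (l48) (l49) (t51) (l52) (t53) (l54) (l55) (t60) (t63) (t65) (l66) (t69) (t70) (t71)) := by
  have h2 : (2 : K) = 0 := CharTwo.two_eq_zero
  have hz : l48 = 0 := by
    have h := hs
    unfold E at h
    rw [W_mul, ← W_zero] at h
    obtain ⟨-, -, -, -, -, -, -, -, -, -, -, -, -, h49, -, -, -, -, -, -, -, -, -, -, -, -, -, -, -, -, -, -, -, -, -, -⟩ := W_inj h
    try simp only [map_zero] at h49
    have key : l36*l48 = 0 := by linear_combination (-l49) * h2 + h49
    simpa [mul_eq_zero, map_eq_zero, pow_eq_zero_iff, hp36] using key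
  subst hz
  exact LD_1_1_1_1_1 d hp36 hm hs

theorem LD_1_1_1 {l36 l45 l48 l49 l52 l54 l55 l66 t44 t47 t51 t53 t60 t63 t65 t69 t70 t71 : K} (d : Dt f) (hp36 : l36 ≠ 0) (hm : E f (l36) 0 0 0 0 0 (t44) (l45) 0 (t47) (l48) (l49) (t51) (l52) (t53) (l54) (l55) (t60) (t63) (t65) (l66) (t69) (t70) (t71) ∈ (sc f).G1) (hs : E f (l36) 0 0 0 0 0 (t44) (l45) 0 (t47) (l48) (l49) (t51) (l52) (t53) (l54) (l55) (t60) (t63) (t65) (l66) (t69) (t70) (t71) * E f (l36) 0 0 0 0 0 (t44) (l45) 0 (t47) (l48) (l49) (t51) (l52) (t53) (l54) (l55) (t60) (t63) (t65) (l66) (t69) (t70) (t71) = 1) : Res f (E f (l36) 0 0 0 0 0 (t44) (l45) 0 (t47) (l48) (l49) (t51) (l52) (t53) (l54) (l55) (t60) (t63) (t65) (l66) (t69) (t70) (t71)) := by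
  have h2 : (2 : K) = 0 := CharTwo.two_eq_zero
  have hz : t44 = 0 := by
    have h := hs
    unfold E at h
    rw [W_mul, ← W_zero] at h
    obtain ⟨-, -, -, -, -, -, -, -, -, h45, -, -, -, -, -, -, -, -, -, -, -, -, -, -, -, -, -, -, -, -, -, -, -, -, -, -⟩ := W_inj h
    try simp only [map_zero] at h45
    have key : l36*t44 = 0 := by linear_combination (-l45) * h2 + h45
    simpa [mul_eq_zero, map_eq_zero, pow_eq_zero_iff, hp36] using key
  subst hz
  exact LD_1_1_1_1 d hp36 hm hs

theorem LD_1_1 {l36 l40 l45 l48 l49 l52 l54 l55 l66 t44 t47 t51 t53 t60 t63 t65 t69 t70 t71 : K} (d : Dt f) (hp36 : l36 ≠ 0) (hm : E f (l36) 0 0 0 (l40) 0 (t44) (l45) 0 (t47) (l48) (l49) (t51) (l52) (t53) (l54) (l55) (t60) (t63) (t65) (l66) (t69) (t70) (t71) ∈ (sc f).G1) (hs : E f (l36) 0 0 0 (l40) 0 (t44) (l45) 0 (t47) (l48) (l49) (t51) (l52) (t53) (l54) (l55) (t60) (t63) (t65) (l66) (t69) (t70) (t71) * E f (l36) 0 0 0 (l40) 0 (t44) (l45) 0 (t47) (l48) (l49) (t51) (l52) (t53) (l54) (l55) (t60) (t63) (t65) (l66) (t69) (t70) (t71) = 1) : Res f (E f (l36)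 0 0 0 (l40) 0 (t44) (l45) 0 (t47) (l48) (l49) (t51) (l52) (t53) (l54) (l55) (t60) (t63) (t65) (l66) (t69) (t70) (t71)) := by
  have h2 : (2 : K) = 0 := CharTwo.two_eq_zero
  have hz : l40 = 0 := by
    have h := hs
    unfold E at h
    rw [W_mul, ← W_zero] at h
    obtain ⟨-, -, -, -, -, h41, -, -, -, -, -, -, -, -, -, -, -, -, -, -, -, -, -, -, -, -, -, -, -, -, -, -, -, -, -, -⟩ := W_inj h
    try simp only [map_zero] at h41
    have key : l36*l40 = 0 := by linear_combination h41
    simpa [mul_eq_zero, map_eq_zero, pow_eq_zero_iff, hp36] using key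
  subst hz
  exact LD_1_1_1 d hp36 hm hs

theorem LD_1 {l36 l40 l41 l45 l48 l49 l52 l54 l55 l66 t44 t47 t51 t53 t60 t63 t65 t69 t70 t71 : K} (d : Dt f) (hp36 : l36 ≠ 0) (hm : E f (l36) 0 0 0 (l40) (l41) (t44) (l45) 0 (t47) (l48) (l49) (t51) (l52) (t53) (l54) (l55) (t60) (t63) (t65) (l66) (t69) (t70) (t71) ∈ (sc f).G1) (hs : E f (l36) 0 0 0 (l40) (l41) (t44) (l45) 0 (t47) (l48) (l49) (t51) (l52) (t53) (l54) (l55) (t60) (t63) (t65) (l66) (t69) (t70) (t71) * E f (l36) 0 0 0 (l40) (l41) (t44) (l45) 0 (t47) (l48) (l49) (t51) (l52) (t53) (l54) (l55) (t60) (t63) (t65) (l66) (t69) (t70) (t71) = 1) : Res f (E f (l36) 0 0 0 (l40) (l41) (t44) (l45) 0 (t47) (l48) (l49) (t51) (l52) (t53) (l54) (l55) (t60) (t63) (t65) (l66) (t69) (t70) (t71)) := by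
  obtain ⟨it39, it44, it46, it47, it51, it53, it60, it63, it65, it69, it70, it71⟩ := inv_of_mem d hm
  obtain ⟨y, rfl⟩ := solve_mul hp36 l41
  have c : Cj f (E f (l36) 0 0 0 (l40) ((l36) * y) (t44) (l45) 0 (t47) (l48) (l49) (t51) (l52) (t53) (l54) (l55) (t60) (t63) (t65) (l66) (t69) (t70) (t71)) (E f (l36) 0 0 0 (l40) 0 (t44) (l45) 0 (t47) (l48) (l49) (t51) (l52) (t53 + l48*(f y) + y*(f l48)) (l54 + l49*(f y)) (l55 + l52*y) (t60) (t63) (t65) (l66 + t63*y) (t69) (t70 + l66*(f y) + y*(f l66) + t63*y*(f y)) (t71 + l49*(f l52)*(f y) + l52*y*(f l49))) := cjS f (E_mem_G1 d (map_zero f) (map_zero f) (map_zero f) (map_zero f) (map_zero f) (map_zero f) (map_zero f) (map_zero f) (map_zero f) (map_zero f) (map_zero f) (map_zero f) 0 0 0 (y) 0 0 0 0 0 0 0 0) (st_LD_1 d.hff it44 it47 it51 it53 it60 it63 it65 it69 it70 it71)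
  exact Res.of_cj f c (LD_1_1 d hp36 (c.mem f hm) (c.sq f hs))

theorem LD {l36 l38 l40 l41 l45 l48 l49 l52 l54 l55 l66 t44 t47 t51 t53 t60 t63 t65 t69 t70 t71 : K} (d : Dt f) (hp36 : l36 ≠ 0) (hm : E f (l36) 0 (l38) 0 (l40) (l41) (t44) (l45) 0 (t47) (l48) (l49) (t51) (l52) (t53) (l54) (l55) (t60) (t63) (t65) (l66) (t69) (t70) (t71) ∈ (sc f).G1) (hs : E f (l36) 0 (l38) 0 (l40) (l41) (t44) (l45) 0 (t47) (l48) (l49) (t51) (l52) (t53) (l54) (l55) (t60) (t63) (t65) (l66) (t69) (t70) (t71) * E f (l36) 0 (l38) 0 (l40) (l41) (t44) (l45) 0 (t47) (l48) (l49) (t51) (l52) (t53) (l54) (l55) (t60) (t63) (t65) (l66) (t69) (t70) (t71) = 1) : Res f (E f (l36) 0 (l38) 0 (l40) (l41) (t44) (l45) 0 (t47) (l48) (l49) (t51) (l52) (t53) (l54) (l55) (t60) (t63) (t65) (l66) (t69) (t70) (t71)) := by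
  obtain ⟨it39, it44, it46, it47, it51, it53, it60, it63, it65, it69, it70, it71⟩ := inv_of_mem d hm
  obtain ⟨y, rfl⟩ := solve_mul hp36 l38
  have c : Cj f (E f (l36) 0 ((l36) * y) 0 (l40) (l41) (t44) (l45) 0 (t47) (l48) (l49) (t51) (l52) (t53) (l54) (l55) (t60) (t63) (t65) (l66) (t69) (t70) (t71)) (E f (l36) 0 0 0 (l40) (l41) (t44 + l40*(f y) + y*(f l40)) (l45 + l41*(f y)) 0 (t47) (l48 + t47*y) (l49) (t51 + l48*(f y) + y*(f l48) + t47*y*(f y)) (l52 + l49*(f y)) (t53) (l54) (l55 + l54*y) (t60) (t63) (t65) (l66 + t65*y) (t69 + l66*(f y) + y*(f l66) + t65*y*(f y)) (t70) (t71)) := cjS f (E_mem_G1 d (map_zero f) (map_zero f) (map_zero f) (map_zero f) (map_zero f) (map_zero f) (map_zero f) (map_zero f) (map_zero f) (map_zero f) (map_zero f) (map_zero f) 0 (y) 0 0 0 0 0 0 0 0 0 0) (st_LD d.hff it44 it47 it51 it53 it60 it63 it65 it69 it70 it71)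
  exact Res.of_cj f c (LD_1 d hp36 (c.mem f hm) (c.sq f hs))

end Cfsg.Agent.Lib.E6Inv50
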