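import Cfsg.Agent.Lib.E6Inv50K

/-!
# The involutions of `²E₆(q)`, `q` even: reduction chains
-/

set_option autoImplicit false
set_option linter.unusedSectionVars false
set_option linter.unusedVariables false
set_option linter.unusedSimpArgs false
set_option maxRecDepth 100000
set_option maxHeartbeats 4000000
set_option linter.unusedTactic false
set_option linter.unreachableTactic false

namespace Cfsg.Agent.Lib.E6Inv50

open Cfsg Cfsg.Lie Cfsg.Agent.Lib.Chev Cfsg.Agent.Lib.Chev.TwE6

variable {K : Type*} [Field K] [CharP K 2] [Fintype K] {f : K ≃+* K}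

theorem C46 {l36 l37 l38 l40 l41 l45 l48 l49 l52 l54 l55 l66 t39 t44 t46 t47 t51 t53 t60 t63 t65 t69 t70 t71 : K} (d : Dt f) (hp46 : t46 ≠ 0) (hm : E f (l36) (l37) (l38) (t39) (l40) (l41) (t44) (l45) (t46) (t47) (l48) (l49) (t51) (l52) (t53) (l54) (l55) (t60) (t63) (t65) (l66) (t69) (t70) (t71) ∈ (sc f).G1) (hs : E f (l36) (l37) (l38) (t39) (l40) (l41) (t44) (l45) (t46) (t47) (l48) (l49) (t51) (l52) (t53) (l54) (l55) (t60) (t63) (t65) (l66) (t69) (t70) (t71) * E f (l36) (l37) (l38) (t39) (l40) (l41) (t44) (l45) (t46) (t47) (l48) (l49) (t51) (l52) (t53) (l54) (l55) (t60) (t63) (t65) (l66) (t69) (t70) (t71) = 1) : Res f (E f (l36) (l37) (l38) (t39) (l40) (l41) (t44) (l45) (t46) (t47) (l48) (l49) (t51) (l52) (t53) (l54) (l55) (t60) (t63) (t65) (l66) (t69) (t70) (t71)) := by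
  exact LA d hp46 hm hs

theorem C39 {l36 l37 l38 l40 l41 l45 l48 l49 l52 l54 l55 l66 t39 t44 t46 t47 t51 t53 t60 t63 t65 t69 t70 t71 : K} (d : Dt f) (hp39 : t39 ≠ 0) (hm : E f (l36) (l37) (l38) (t39) (l40) (l41) (t44) (l45) (t46) (t47) (l48) (l49) (t51) (l52) (t53) (l54) (l55) (t60) (t63) (t65) (l66) (t69) (t70) (t71) ∈ (sc f).G1) (hs : E f (l36) (l37) (l38) (t39) (l40) (l41) (t44) (l45) (t46) (t47) (l48) (l49) (t51) (l52) (t53) (l54) (l55) (t60) (t63) (t65) (l66) (t69) (t70) (t71) * E f (l36) (l37) (l38) (t39) (l40) (l41) (t44) (l45) (t46) (t47) (l48) (l49) (t51) (l52) (t53) (l54) (l55) (t60) (t63) (t65) (l66) (t69) (t70) (t71) = 1) : Res f (E f (l36) (l37) (l38) (t39) (l40) (l41) (t44) (l45) (t46) (t47) (l48) (l49) (t51) (l52) (t53) (l54) (l55) (t60) (t63) (t65) (l66) (t69) (t70) (t71)) := by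
  by_cases h46 : t46 = 0
  swap
  · exact C46 d h46 hm hs
  subst h46
  exact LB d hp39 hm hs

theorem C37 {l36 l37 l38 l40 l41 l45 l48 l49 l52 l54 l55 l66 t39 t44 t46 t47 t51 t53 t60 t63 t65 t69 t70 t71 : K} (d : Dt f) (hp37 : l37 ≠ 0) (hm : E f (l36) (l37) (l38) (t39) (l40) (l41) (t44) (l45) (t46) (t47) (l48) (l49) (t51) (l52) (t53) (l54) (l55) (t60) (t63) (t65) (l66) (t69) (t70) (t71) ∈ (sc f).G1) (hs : E f (l36) (l37) (l38) (t39) (l40) (l41) (t44) (l45) (t46) (t47) (l48) (l49) (t51) (l52) (t53) (l54) (l55) (t60) (t63) (t65) (l66) (t69) (t70) (t71) * E f (l36) (l37) (l38) (t39) (l40) (l41) (t44) (l45) (t46) (t47) (l48) (l49) (t51) (l52) (t53) (l54) (l55) (t60) (t63) (t65) (l66) (t69) (t70) (t71) = 1) : Res f (E f (l36) (l37) (l38) (t39) (l40) (l41) (t44) (l45) (t46) (t47) (l48) (l49) (t51) (l52) (t53) (l54) (l55) (t60) (t63) (t65) (l66) (t69) (t70) (t71)) := by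
  by_cases h46 : t46 = 0
  swap
  · exact C46 d h46 hm hs
  subst h46
  by_cases h39 : t39 = 0
  swap
  · exact C39 d h39 hm hs
  subst h39
  exact LC d hp37 hm hs

theorem C36 {l36 l37 l38 l40 l41 l45 l48 l49 l52 l54 l55 l66 t39 t44 t46 t47 t51 t53 t60 t63 t65 t69 t70 t71 : K} (d : Dt f) (hp36 : l36 ≠ 0) (hm : E f (l36) (l37) (l38) (t39) (l40) (l41) (t44) (l45) (t46) (t47) (l48) (l49) (t51) (l52) (t53) (l54) (l55) (t60) (t63) (t65) (l66) (t69) (t70) (t71) ∈ (sc f).G1) (hs : E f (l36) (l37) (l38) (t39) (l40) (l41) (t44) (l45) (t46) (t47) (l48) (l49) (t51) (l52) (t53) (l54) (l55) (t60) (t63) (t65) (l66) (t69) (t70) (t71) * E f (l36) (l37) (l38) (t39) (l40) (l41) (t44) (l45) (t46) (t47) (l48) (l49) (t51) (l52) (t53) (l54) (l55) (t60) (t63) (t65) (l66) (t69) (t70) (t71) = 1) : Res f (E f (l36) (l37) (l38) (t39) (l40) (l41) (t44) (l45) (t46) (t47) (l48) (l49) (t51) (l52) (t53) (l54) (l55) (t60) (t63) (t65) (l66) (t69) (t70) (t71)) := by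
  by_cases h46 : t46 = 0
  swap
  · exact C46 d h46 hm hs
  subst h46
  by_cases h39 : t39 = 0
  swap
  · exact C39 d h39 hm hs
  subst h39
  by_cases h37 : l37 = 0
  swap
  · exact C37 d h37 hm hs
  subst h37
  exact LD d hp36 hm hs

theorem nE_W38 {l38 l40 l41 l45 l48 l49 l52 l54 l55 l66 t44 t47 t51 t53 t60 t63 t65 t69 t70 t71 : K} (hff : ∀ t, f (f t) = t) (it44 : f t44 = t44) (it47 : f t47 = t47) (it51 : f t51 = t51) (it53 : f t53 = t53) (it60 : f t60 = t60) (it63 : f t63 = t63) (it65 : f t65 = t65) (it69 : f t69 = t69) (it70 : f t70 = t70) (it71 : f t71 = t71) :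
    nR [2] * E f 0 0 (l38) 0 (l40) (l41) (t44) (l45) 0 (t47) (l48) (l49) (t51) (l52) (t53) (l54) (l55) (t60) (t63) (t65) (l66) (t69) (t70) (t71) * (nR [2])⁻¹ = E f (l38) 0 0 (t44) ((f l40)) (l45) 0 (l41) 0 (t51) ((f l48)) (l52) (t47) (l49) (t53) (l55) (l54) (t60) (t63) (t69) ((f l66)) (t65) (t70) (t71) := by
  have h2 : (2 : K) = 0 := CharTwo.two_eq_zero
  have c38 := fun t : K => nR_at (l := [2]) (s := 38) (m := 36) (by decide +kernel) t
  have c40 := fun t : K => nR_at (l := [2]) (s := 40) (m := 43) (by decide +kernel) t
  have c41 := fun t : K => nR_at (l := [2]) (s := 41) (m := 45) (by decide +kernel) t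
  have c43 := fun t : K => nR_at (l := [2]) (s := 43) (m := 40) (by decide +kernel) t
  have c44 := fun t : K => nR_at (l := [2]) (s := 44) (m := 39) (by decide +kernel) t
  have c45 := fun t : K => nR_at (l := [2]) (s := 45) (m := 41) (by decide +kernel) t
  have c47 := fun t : K => nR_at (l := [2]) (s := 47) (m := 51) (by decide +kernel) t
  have c48 := fun t : K => nR_at (l := [2]) (s := 48) (m := 50) (by decide +kernel) t
  have c49 := fun t : K => nR_at (l := [2]) (s := 49) (m := 52) (by decide +kernel) t
  have c50 := fun t : K => nR_at (l := [2]) (s := 50) (m := 48) (by decide +kernel) t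
  have c51 := fun t : K => nR_at (l := [2]) (s := 51) (m := 47) (by decide +kernel) t
  have c52 := fun t : K => nR_at (l := [2]) (s := 52) (m := 49) (by decide +kernel) t
  have c53 := fun t : K => nR_at (l := [2]) (s := 53) (m := 53) (by decide +kernel) t
  have c54 := fun t : K => nR_at (l := [2]) (s := 54) (m := 55) (by decide +kernel) t
  have c55 := fun t : K => nR_at (l := [2]) (s := 55) (m := 54) (by decide +kernel) t
  have c57 := fun t : K => nR_at (l := [2]) (s := 57) (m := 56) (by decide +kernel) t
  have c58 := fun t : K => nR_at (l := [2]) (s := 58) (m := 59) (by decide +kernel) t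
  have c59 := fun t : K => nR_at (l := [2]) (s := 59) (m := 58) (by decide +kernel) t
  have c60 := fun t : K => nR_at (l := [2]) (s := 60) (m := 60) (by decide +kernel) t
  have c61 := fun t : K => nR_at (l := [2]) (s := 61) (m := 62) (by decide +kernel) t
  have c62 := fun t : K => nR_at (l := [2]) (s := 62) (m := 61) (by decide +kernel) t
  have c63 := fun t : K => nR_at (l := [2]) (s := 63) (m := 63) (by decide +kernel) t
  have c64 := fun t : K => nR_at (l := [2]) (s := 64) (m := 67) (by decide +kernel) t
  have c65 := fun t : K => nR_at (l := [2]) (s := 65) (m := 69) (by decide +kernel) t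
  have c66 := fun t : K => nR_at (l := [2]) (s := 66) (m := 68) (by decide +kernel) t
  have c67 := fun t : K => nR_at (l := [2]) (s := 67) (m := 64) (by decide +kernel) t
  have c68 := fun t : K => nR_at (l := [2]) (s := 68) (m := 66) (by decide +kernel) t
  have c69 := fun t : K => nR_at (l := [2]) (s := 69) (m := 65) (by decide +kernel) t
  have c70 := fun t : K => nR_at (l := [2]) (s := 70) (m := 70) (by decide +kernel) t
  have c71 := fun t : K => nR_at (l := [2]) (s := 71) (m := 71) (by decide +kernel) t
  unfold E
  rw [conj_W]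
  simp only [map_zero, zero_mul, mul_zero, add_zero, zero_add, conj_x0, one_mul, c38, c40, c41, c43, c44, c45, c47, c48, c49, c50, c51, c52, c53, c54, c55, c57, c58, c59, c60, c61, c62, c63, c64, c65, c66, c67, c68, c69, c70, c71]
  rw [← W_zero (K := K)]
  simp only [xW_36, xW_39, xW_40, xW_41, xW_43, xW_45, xW_47, xW_48, xW_49, xW_50, xW_51, xW_52, xW_53, xW_54, xW_55, xW_56, xW_58, xW_59, xW_60, xW_61, xW_62, xW_63, xW_64, xW_65, xW_66, xW_67, xW_68, xW_69, xW_70, xW_71, zero_mul, mul_zero, add_zero, zero_add]
  first
    | done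
    | apply W_congr
      · (try simp only [map_add, map_mul, map_pow, map_zero, map_one, hff, it44, it47, it51, it53, it60, it63, it65, it69, it70, it71]) <;> linear_combination (0 : K) * h2
      · (try simp only [map_add, map_mul, map_pow, map_zero, map_one, hff, it44, it47, it51, it53, it60, it63, it65, it69, it70, it71]) <;> linear_combination (0 : K) * h2
      · (try simp only [map_add, map_mul, map_pow, map_zero, map_one, hff, it44, it47, it51, it53, it60, it63, it65, it69, it70, it71]) <;> linear_combination (0 : K) * h2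
      · (try simp only [map_add, map_mul, map_pow, map_zero, map_one, hff, it44, it47, it51, it53, it60, it63, it65, it69, it70, it71]) <;> linear_combination (0 : K) * h2
      · (try simp only [map_add, map_mul, map_pow, map_zero, map_one, hff, it44, it47, it51, it53, it60, it63, it65, it69, it70, it71]) <;> linear_combination (0 : K) * h2
      · (try simp only [map_add, map_mul, map_pow, map_zero, map_one, hff, it44, it47, it51, it53, it60, it63, it65, it69, it70, it71]) <;> linear_combination (0 : K) * h2
      · (try simp only [map_add, map_mul, map_pow, map_zero, map_one, hff, it44, it47, it51, it53, it60, it63, it65, it69, it70, it71]) <;> linear_combination (0 : K) * h2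
      · (try simp only [map_add, map_mul, map_pow, map_zero, map_one, hff, it44, it47, it51, it53, it60, it63, it65, it69, it70, it71]) <;> linear_combination (0 : K) * h2
      · (try simp only [map_add, map_mul, map_pow, map_zero, map_one, hff, it44, it47, it51, it53, it60, it63, it65, it69, it70, it71]) <;> linear_combination (0 : K) * h2
      · (try simp only [map_add, map_mul, map_pow, map_zero, map_one, hff, it44, it47, it51, it53, it60, it63, it65, it69, it70, it71]) <;> linear_combination (0 : K) * h2
      · (try simp only [map_add, map_mul, map_pow, map_zero, map_one, hff, it44, it47, it51, it53, it60, it63, it65, it69, it70, it71]) <;> linear_combination (0 : K) * h2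
      · (try simp only [map_add, map_mul, map_pow, map_zero, map_one, hff, it44, it47, it51, it53, it60, it63, it65, it69, it70, it71]) <;> linear_combination (0 : K) * h2
      · (try simp only [map_add, map_mul, map_pow, map_zero, map_one, hff, it44, it47, it51, it53, it60, it63, it65, it69, it70, it71]) <;> linear_combination (0 : K) * h2
      · (try simp only [map_add, map_mul, map_pow, map_zero, map_one, hff, it44, it47, it51, it53, it60, it63, it65, it69, it70, it71]) <;> linear_combination (0 : K) * h2
      · (try simp only [map_add, map_mul, map_pow, map_zero, map_one, hff, it44, it47, it51, it53, it60, it63, it65, it69, it70, it71]) <;> linear_combination (0 : K) * h2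
      · (try simp only [map_add, map_mul, map_pow, map_zero, map_one, hff, it44, it47, it51, it53, it60, it63, it65, it69, it70, it71]) <;> linear_combination (0 : K) * h2
      · (try simp only [map_add, map_mul, map_pow, map_zero, map_one, hff, it44, it47, it51, it53, it60, it63, it65, it69, it70, it71]) <;> linear_combination (0 : K) * h2
      · (try simp only [map_add, map_mul, map_pow, map_zero, map_one, hff, it44, it47, it51, it53, it60, it63, it65, it69, it70, it71]) <;> linear_combination (0 : K) * h2
      · (try simp only [map_add, map_mul, map_pow, map_zero, map_one, hff, it44, it47, it51, it53, it60, it63, it65, it69, it70, it71]) <;> linear_combination (0 : K) * h2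
      · (try simp only [map_add, map_mul, map_pow, map_zero, map_one, hff, it44, it47, it51, it53, it60, it63, it65, it69, it70, it71]) <;> linear_combination (0 : K) * h2
      · (try simp only [map_add, map_mul, map_pow, map_zero, map_one, hff, it44, it47, it51, it53, it60, it63, it65, it69, it70, it71]) <;> linear_combination (0 : K) * h2
      · (try simp only [map_add, map_mul, map_pow, map_zero, map_one, hff, it44, it47, it51, it53, it60, it63, it65, it69, it70, it71]) <;> linear_combination (0 : K) * h2
      · (try simp only [map_add, map_mul, map_pow, map_zero, map_one, hff, it44, it47, it51, it53, it60, it63, it65, it69, it70, it71]) <;> linear_combination (0 : K) * h2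
      · (try simp only [map_add, map_mul, map_pow, map_zero, map_one, hff, it44, it47, it51, it53, it60, it63, it65, it69, it70, it71]) <;> linear_combination (0 : K) * h2
      · (try simp only [map_add, map_mul, map_pow, map_zero, map_one, hff, it44, it47, it51, it53, it60, it63, it65, it69, it70, it71]) <;> linear_combination (0 : K) * h2
      · (try simp only [map_add, map_mul, map_pow, map_zero, map_one, hff, it44, it47, it51, it53, it60, it63, it65, it69, it70, it71]) <;> linear_combination (0 : K) * h2
      · (try simp only [map_add, map_mul, map_pow, map_zero, map_one, hff, it44, it47, it51, it53, it60, it63, it65, it69, it70, it71]) <;> linear_combination (0 : K) * h2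
      · (try simp only [map_add, map_mul, map_pow, map_zero, map_one, hff, it44, it47, it51, it53, it60, it63, it65, it69, it70, it71]) <;> linear_combination (0 : K) * h2
      · (try simp only [map_add, map_mul, map_pow, map_zero, map_one, hff, it44, it47, it51, it53, it60, it63, it65, it69, it70, it71]) <;> linear_combination (0 : K) * h2
      · (try simp only [map_add, map_mul, map_pow, map_zero, map_one, hff, it44, it47, it51, it53, it60, it63, it65, it69, it70, it71]) <;> linear_combination (0 : K) * h2
      · (try simp only [map_add, map_mul, map_pow, map_zero, map_one, hff, it44, it47, it51, it53, it60, it63, it65, it69, it70, it71]) <;> linear_combination (0 : K) * h2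
      · (try simp only [map_add, map_mul, map_pow, map_zero, map_one, hff, it44, it47, it51, it53, it60, it63, it65, it69, it70, it71]) <;> linear_combination (0 : K) * h2
      · (try simp only [map_add, map_mul, map_pow, map_zero, map_one, hff, it44, it47, it51, it53, it60, it63, it65, it69, it70, it71]) <;> linear_combination (0 : K) * h2
      · (try simp only [map_add, map_mul, map_pow, map_zero, map_one, hff, it44, it47, it51, it53, it60, it63, it65, it69, it70, it71]) <;> linear_combination (0 : K) * h2
      · (try simp only [map_add, map_mul, map_pow, map_zero, map_one, hff, it44, it47, it51, it53, it60, it63, it65, it69, it70, it71]) <;> linear_combination (0 : K) * h2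
      · (try simp only [map_add, map_mul, map_pow, map_zero, map_one, hff, it44, it47, it51, it53, it60, it63, it65, it69, it70, it71]) <;> linear_combination (0 : K) * h2

theorem W38_1 {l36 l40 l41 l45 l48 l49 l52 l54 l55 l66 t39 t47 t51 t53 t60 t63 t65 t69 t70 t71 : K} (d : Dt f) (hp36 : l36 ≠ 0) (hm : E f (l36) 0 0 (t39) (l40) (l41) 0 (l45) 0 (t47) (l48) (l49) (t51) (l52) (t53) (l54) (l55) (t60) (t63) (t65) (l66) (t69) (t70) (t71) ∈ (sc f).G1) (hs : E f (l36) 0 0 (t39) (l40) (l41) 0 (l45) 0 (t47) (l48) (l49) (t51) (l52) (t53) (l54) (l55) (t60) (t63) (t65) (l66) (t69) (t70) (t71) * E f (l36) 0 0 (t39) (l40) (l41) 0 (l45) 0 (t47) (l48) (l49) (t51) (l52) (t53) (l54) (l55) (t60) (t63) (t65) (l66) (t69) (t70) (t71) = 1) : Res f (E f (l36) 0 0 (t39) (l40) (l41) 0 (l45) 0 (t47) (l48) (l49) (t51) (l52) (t53) (l54) (l55) (t60) (t63) (t65) (l66) (t69) (t70) (t71)) := by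
  exact C36 d hp36 hm hs

theorem W38 {l38 l40 l41 l45 l48 l49 l52 l54 l55 l66 t44 t47 t51 t53 t60 t63 t65 t69 t70 t71 : K} (d : Dt f) (hp38 : l38 ≠ 0) (hm : E f 0 0 (l38) 0 (l40) (l41) (t44) (l45) 0 (t47) (l48) (l49) (t51) (l52) (t53) (l54) (l55) (t60) (t63) (t65) (l66) (t69) (t70) (t71) ∈ (sc f).G1) (hs : E f 0 0 (l38) 0 (l40) (l41) (t44) (l45) 0 (t47) (l48) (l49) (t51) (l52) (t53) (l54) (l55) (t60) (t63) (t65) (l66) (t69) (t70) (t71) * E f 0 0 (l38) 0 (l40) (l41) (t44) (l45) 0 (t47) (l48) (l49) (t51) (l52) (t53) (l54) (l55) (t60) (t63) (t65) (l66) (t69) (t70) (t71) = 1) : Res f (E f 0 0 (l38) 0 (l40) (l41) (t44) (l45) 0 (t47) (l48) (l49) (t51) (l52) (t53) (l54) (l55) (t60) (t63) (t65) (l66) (t69) (t70) (t71)) := by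
  obtain ⟨it39, it44, it46, it47, it51, it53, it60, it63, it65, it69, it70, it71⟩ := inv_of_mem d hm
  have c : Cj f (E f 0 0 (l38) 0 (l40) (l41) (t44) (l45) 0 (t47) (l48) (l49) (t51) (l52) (t53) (l54) (l55) (t60) (t63) (t65) (l66) (t69) (t70) (t71)) (E f (l38) 0 0 (t44) ((f l40)) (l45) 0 (l41) 0 (t51) ((f l48)) (l52) (t47) (l49) (t53) (l55) (l54) (t60) (t63) (t69) ((f l66)) (t65) (t70) (t71)) := cjN f (nR_mem f [2]) (nE_W38 d.hff it44 it47 it51 it53 it60 it63 it65 it69 it70 it71)
  exact Res.of_cj f c (W38_1 d hp38 (c.mem f hm) (c.sq f hs))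

theorem C38 {l36 l37 l38 l40 l41 l45 l48 l49 l52 l54 l55 l66 t39 t44 t46 t47 t51 t53 t60 t63 t65 t69 t70 t71 : K} (d : Dt f) (hp38 : l38 ≠ 0) (hm : E f (l36) (l37) (l38) (t39) (l40) (l41) (t44) (l45) (t46) (t47) (l48) (l49) (t51) (l52) (t53) (l54) (l55) (t60) (t63) (t65) (l66) (t69) (t70) (t71) ∈ (sc f).G1) (hs : E f (l36) (l37) (l38) (t39) (l40) (l41) (t44) (l45) (t46) (t47) (l48) (l49) (t51) (l52) (t53) (l54) (l55) (t60) (t63) (t65) (l66) (t69) (t70) (t71) * E f (l36) (l37) (l38) (t39) (l40) (l41) (t44) (l45) (t46) (t47) (l48) (l49) (t51) (l52) (t53) (l54) (l55) (t60) (t63) (t65) (l66) (t69) (t70) (t71) = 1) : Res f (E f (l36) (l37) (l38) (t39) (l40) (l41) (t44) (l45) (t46) (t47) (l48) (l49) (t51) (l52) (t53) (l54) (l55) (t60) (t63) (t65) (l66) (t69) (t70) (t71)) := by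
  by_cases h46 : t46 = 0
  swap
  · exact C46 d h46 hm hs
  subst h46
  by_cases h39 : t39 = 0
  swap
  · exact C39 d h39 hm hs
  subst h39
  by_cases h37 : l37 = 0
  swap
  · exact C37 d h37 hm hs
  subst h37
  by_cases h36 : l36 = 0
  swap
  · exact C36 d h36 hm hs
  subst h36
  exact W38 d hp38 hm hs

theorem nE_W40 {l40 l41 l45 l48 l49 l52 l54 l55 l66 t44 t47 t51 t53 t60 t63 t65 t69 t70 t71 : K} (hff : ∀ t, f (f t) = t) (it44 : f t44 = t44) (it47 : f t47 = t47) (it51 : f t51 = t51) (it53 : f t53 = t53) (it60 : f t60 = t60) (it63 : f t63 = t63) (it65 : f t65 = t65) (it69 : f t69 = t69) (it70 : f t70 = t70) (it71 : f t71 = t71) :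
    nR [1] * E f 0 0 0 0 (l40) (l41) (t44) (l45) 0 (t47) (l48) (l49) (t51) (l52) (t53) (l54) (l55) (t60) (t63) (t65) (l66) (t69) (t70) (t71) * (nR [1])⁻¹ = E f 0 (l40) (l41) 0 0 0 (t44) (l45) (t47) 0 (l48) (l49) (t53) (l54) (t51) (l52) (l55) (t60) (t65) (t63) (l66) (t70) (t69) (t71 + l52*(f l54) + l54*(f l52)) := by
  have h2 : (2 : K) = 0 := CharTwo.two_eq_zero
  have c40 := fun t : K => nR_at (l := [1]) (s := 40) (m := 37) (by decide +kernel) t
  have c41 := fun t : K => nR_at (l := [1]) (s := 41) (m := 38) (by decide +kernel) t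
  have c43 := fun t : K => nR_at (l := [1]) (s := 43) (m := 42) (by decide +kernel) t
  have c44 := fun t : K => nR_at (l := [1]) (s := 44) (m := 44) (by decide +kernel) t
  have c45 := fun t : K => nR_at (l := [1]) (s := 45) (m := 45) (by decide +kernel) t
  have c47 := fun t : K => nR_at (l := [1]) (s := 47) (m := 46) (by decide +kernel) t
  have c48 := fun t : K => nR_at (l := [1]) (s := 48) (m := 48) (by decide +kernel) t
  have c49 := fun t : K => nR_at (l := [1]) (s := 49) (m := 49) (by decide +kernel) t
  have c50 := fun t : K => nR_at (l := [1]) (s := 50) (m := 50) (by decide +kernel) t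
  have c51 := fun t : K => nR_at (l := [1]) (s := 51) (m := 53) (by decide +kernel) t
  have c52 := fun t : K => nR_at (l := [1]) (s := 52) (m := 54) (by decide +kernel) t
  have c53 := fun t : K => nR_at (l := [1]) (s := 53) (m := 51) (by decide +kernel) t
  have c54 := fun t : K => nR_at (l := [1]) (s := 54) (m := 52) (by decide +kernel) t
  have c55 := fun t : K => nR_at (l := [1]) (s := 55) (m := 55) (by decide +kernel) t
  have c58 := fun t : K => nR_at (l := [1]) (s := 58) (m := 57) (by decide +kernel) t
  have c59 := fun t : K => nR_at (l := [1]) (s := 59) (m := 59) (by decide +kernel) t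
  have c60 := fun t : K => nR_at (l := [1]) (s := 60) (m := 60) (by decide +kernel) t
  have c61 := fun t : K => nR_at (l := [1]) (s := 61) (m := 61) (by decide +kernel) t
  have c62 := fun t : K => nR_at (l := [1]) (s := 62) (m := 64) (by decide +kernel) t
  have c63 := fun t : K => nR_at (l := [1]) (s := 63) (m := 65) (by decide +kernel) t
  have c64 := fun t : K => nR_at (l := [1]) (s := 64) (m := 62) (by decide +kernel) t
  have c65 := fun t : K => nR_at (l := [1]) (s := 65) (m := 63) (by decide +kernel) t
  have c66 := fun t : K => nR_at (l := [1]) (s := 66) (m := 66) (by decide +kernel) t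
  have c67 := fun t : K => nR_at (l := [1]) (s := 67) (m := 67) (by decide +kernel) t
  have c68 := fun t : K => nR_at (l := [1]) (s := 68) (m := 68) (by decide +kernel) t
  have c69 := fun t : K => nR_at (l := [1]) (s := 69) (m := 70) (by decide +kernel) t
  have c70 := fun t : K => nR_at (l := [1]) (s := 70) (m := 69) (by decide +kernel) t
  have c71 := fun t : K => nR_at (l := [1]) (s := 71) (m := 71) (by decide +kernel) t
  unfold E
  rw [conj_W]
  simp only [map_zero, zero_mul, mul_zero, add_zero, zero_add, conj_x0, one_mul, c40, c41, c43, c44, c45, c47, c48, c49, c50, c51, c52, c53, c54, c55, c58, c59, c60, c61, c62, c63, c64, c65, c66, c67, c68, c69, c70, c71]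
  rw [← W_zero (K := K)]
  simp only [xW_37, xW_38, xW_42, xW_44, xW_45, xW_46, xW_48, xW_49, xW_50, xW_51, xW_52, xW_53, xW_54, xW_55, xW_57, xW_59, xW_60, xW_61, xW_62, xW_63, xW_64, xW_65, xW_66, xW_67, xW_68, xW_69, xW_70, xW_71, zero_mul, mul_zero, add_zero, zero_add]
  first
    | done
    | apply W_congr
      · (try simp only [map_add, map_mul, map_pow, map_zero, map_one, hff, it44, it47, it51, it53, it60, it63, it65, it69, it70, it71]) <;> linear_combination (0 : K) * h2
      · (try simp only [map_add, map_mul, map_pow, map_zero, map_one, hff, it44, it47, it51, it53, it60, it63, it65, it69, it70, it71]) <;> linear_combination (0 : K) * h2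
      · (try simp only [map_add, map_mul, map_pow, map_zero, map_one, hff, it44, it47, it51, it53, it60, it63, it65, it69, it70, it71]) <;> linear_combination (0 : K) * h2
      · (try simp only [map_add, map_mul, map_pow, map_zero, map_one, hff, it44, it47, it51, it53, it60, it63, it65, it69, it70, it71]) <;> linear_combination (0 : K) * h2
      · (try simp only [map_add, map_mul, map_pow, map_zero, map_one, hff, it44, it47, it51, it53, it60, it63, it65, it69, it70, it71]) <;> linear_combination (0 : K) * h2
      · (try simp only [map_add, map_mul, map_pow, map_zero, map_one, hff, it44, it47, it51, it53, it60, it63, it65, it69, it70, it71]) <;> linear_combination (0 : K) * h2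
      · (try simp only [map_add, map_mul, map_pow, map_zero, map_one, hff, it44, it47, it51, it53, it60, it63, it65, it69, it70, it71]) <;> linear_combination (0 : K) * h2
      · (try simp only [map_add, map_mul, map_pow, map_zero, map_one, hff, it44, it47, it51, it53, it60, it63, it65, it69, it70, it71]) <;> linear_combination (0 : K) * h2
      · (try simp only [map_add, map_mul, map_pow, map_zero, map_one, hff, it44, it47, it51, it53, it60, it63, it65, it69, it70, it71]) <;> linear_combination (0 : K) * h2
      · (try simp only [map_add, map_mul, map_pow, map_zero, map_one, hff, it44, it47, it51, it53, it60, it63, it65, it69, it70, it71]) <;> linear_combination (0 : K) * h2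
      · (try simp only [map_add, map_mul, map_pow, map_zero, map_one, hff, it44, it47, it51, it53, it60, it63, it65, it69, it70, it71]) <;> linear_combination (0 : K) * h2
      · (try simp only [map_add, map_mul, map_pow, map_zero, map_one, hff, it44, it47, it51, it53, it60, it63, it65, it69, it70, it71]) <;> linear_combination (0 : K) * h2
      · (try simp only [map_add, map_mul, map_pow, map_zero, map_one, hff, it44, it47, it51, it53, it60, it63, it65, it69, it70, it71]) <;> linear_combination (0 : K) * h2
      · (try simp only [map_add, map_mul, map_pow, map_zero, map_one, hff, it44, it47, it51, it53, it60, it63, it65, it69, it70, it71]) <;> linear_combination (0 : K) * h2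
      · (try simp only [map_add, map_mul, map_pow, map_zero, map_one, hff, it44, it47, it51, it53, it60, it63, it65, it69, it70, it71]) <;> linear_combination (0 : K) * h2
      · (try simp only [map_add, map_mul, map_pow, map_zero, map_one, hff, it44, it47, it51, it53, it60, it63, it65, it69, it70, it71]) <;> linear_combination (0 : K) * h2
      · (try simp only [map_add, map_mul, map_pow, map_zero, map_one, hff, it44, it47, it51, it53, it60, it63, it65, it69, it70, it71]) <;> linear_combination (0 : K) * h2
      · (try simp only [map_add, map_mul, map_pow, map_zero, map_one, hff, it44, it47, it51, it53, it60, it63, it65, it69, it70, it71]) <;> linear_combination (0 : K) * h2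
      · (try simp only [map_add, map_mul, map_pow, map_zero, map_one, hff, it44, it47, it51, it53, it60, it63, it65, it69, it70, it71]) <;> linear_combination (0 : K) * h2
      · (try simp only [map_add, map_mul, map_pow, map_zero, map_one, hff, it44, it47, it51, it53, it60, it63, it65, it69, it70, it71]) <;> linear_combination (0 : K) * h2
      · (try simp only [map_add, map_mul, map_pow, map_zero, map_one, hff, it44, it47, it51, it53, it60, it63, it65, it69, it70, it71]) <;> linear_combination (0 : K) * h2
      · (try simp only [map_add, map_mul, map_pow, map_zero, map_one, hff, it44, it47, it51, it53, it60, it63, it65, it69, it70, it71]) <;> linear_combination (0 : K) * h2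
      · (try simp only [map_add, map_mul, map_pow, map_zero, map_one, hff, it44, it47, it51, it53, it60, it63, it65, it69, it70, it71]) <;> linear_combination (0 : K) * h2
      · (try simp only [map_add, map_mul, map_pow, map_zero, map_one, hff, it44, it47, it51, it53, it60, it63, it65, it69, it70, it71]) <;> linear_combination (0 : K) * h2
      · (try simp only [map_add, map_mul, map_pow, map_zero, map_one, hff, it44, it47, it51, it53, it60, it63, it65, it69, it70, it71]) <;> linear_combination (0 : K) * h2
      · (try simp only [map_add, map_mul, map_pow, map_zero, map_one, hff, it44, it47, it51, it53, it60, it63, it65, it69, it70, it71]) <;> linear_combination (0 : K) * h2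
      · (try simp only [map_add, map_mul, map_pow, map_zero, map_one, hff, it44, it47, it51, it53, it60, it63, it65, it69, it70, it71]) <;> linear_combination (0 : K) * h2
      · (try simp only [map_add, map_mul, map_pow, map_zero, map_one, hff, it44, it47, it51, it53, it60, it63, it65, it69, it70, it71]) <;> linear_combination (0 : K) * h2
      · (try simp only [map_add, map_mul, map_pow, map_zero, map_one, hff, it44, it47, it51, it53, it60, it63, it65, it69, it70, it71]) <;> linear_combination (0 : K) * h2
      · (try simp only [map_add, map_mul, map_pow, map_zero, map_one, hff, it44, it47, it51, it53, it60, it63, it65, it69, it70, it71]) <;> linear_combination (0 : K) * h2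
      · (try simp only [map_add, map_mul, map_pow, map_zero, map_one, hff, it44, it47, it51, it53, it60, it63, it65, it69, it70, it71]) <;> linear_combination (0 : K) * h2
      · (try simp only [map_add, map_mul, map_pow, map_zero, map_one, hff, it44, it47, it51, it53, it60, it63, it65, it69, it70, it71]) <;> linear_combination (0 : K) * h2
      · (try simp only [map_add, map_mul, map_pow, map_zero, map_one, hff, it44, it47, it51, it53, it60, it63, it65, it69, it70, it71]) <;> linear_combination (0 : K) * h2
      · (try simp only [map_add, map_mul, map_pow, map_zero, map_one, hff, it44, it47, it51, it53, it60, it63, it65, it69, it70, it71]) <;> linear_combination (0 : K) * h2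
      · (try simp only [map_add, map_mul, map_pow, map_zero, map_one, hff, it44, it47, it51, it53, it60, it63, it65, it69, it70, it71]) <;> linear_combination (0 : K) * h2
      · (try simp only [map_add, map_mul, map_pow, map_zero, map_one, hff, it44, it47, it51, it53, it60, it63, it65, it69, it70, it71]) <;> linear_combination (-l52*(f l54)) * h2

theorem W40_1 {l37 l38 l45 l48 l49 l52 l54 l55 l66 t44 t46 t51 t53 t60 t63 t65 t69 t70 t71 : K} (d : Dt f) (hp37 : l37 ≠ 0) (hm : E f 0 (l37) (l38) 0 0 0 (t44) (l45) (t46) 0 (l48) (l49) (t51) (l52) (t53) (l54) (l55) (t60) (t63) (t65) (l66) (t69) (t70) (t71) ∈ (sc f).G1) (hs : E f 0 (l37) (l38) 0 0 0 (t44) (l45) (t46) 0 (l48) (l49) (t51) (l52) (t53) (l54) (l55) (t60) (t63) (t65) (l66) (t69) (t70) (t71) * E f 0 (l37) (l38) 0 0 0 (t44) (l45) (t46) 0 (l48) (l49) (t51) (l52) (t53) (l54) (l55) (t60) (t63) (t65) (l66) (t69) (t70) (t71) = 1) : Res f (E f 0 (l37) (l38) 0 0 0 (t44) (l45) (t46) 0 (l48) (l49) (t51) (l52) (t53) (l54) (l55) (t60) (t63) (t65) (l66) (t69) (t70) (t71)) := by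
  exact C37 d hp37 hm hs

theorem W40 {l40 l41 l45 l48 l49 l52 l54 l55 l66 t44 t47 t51 t53 t60 t63 t65 t69 t70 t71 : K} (d : Dt f) (hp40 : l40 ≠ 0) (hm : E f 0 0 0 0 (l40) (l41) (t44) (l45) 0 (t47) (l48) (l49) (t51) (l52) (t53) (l54) (l55) (t60) (t63) (t65) (l66) (t69) (t70) (t71) ∈ (sc f).G1) (hs : E f 0 0 0 0 (l40) (l41) (t44) (l45) 0 (t47) (l48) (l49) (t51) (l52) (t53) (l54) (l55) (t60) (t63) (t65) (l66) (t69) (t70) (t71) * E f 0 0 0 0 (l40) (l41) (t44) (l45) 0 (t47) (l48) (l49) (t51) (l52) (t53) (l54) (l55) (t60) (t63) (t65) (l66) (t69) (t70) (t71) = 1) : Res f (E f 0 0 0 0 (l40) (l41) (t44) (l45) 0 (t47) (l48) (l49) (t51) (l52) (t53) (l54) (l55) (t60) (t63) (t65) (l66) (t69) (t70) (t71)) := by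
  obtain ⟨it39, it44, it46, it47, it51, it53, it60, it63, it65, it69, it70, it71⟩ := inv_of_mem d hm
  have c : Cj f (E f 0 0 0 0 (l40) (l41) (t44) (l45) 0 (t47) (l48) (l49) (t51) (l52) (t53) (l54) (l55) (t60) (t63) (t65) (l66) (t69) (t70) (t71)) (E f 0 (l40) (l41) 0 0 0 (t44) (l45) (t47) 0 (l48) (l49) (t53) (l54) (t51) (l52) (l55) (t60) (t65) (t63) (l66) (t70) (t69) (t71 + l52*(f l54) + l54*(f l52))) := cjN f (nR_mem f [1]) (nE_W40 d.hff it44 it47 it51 it53 it60 it63 it65 it69 it70 it71)
  exact Res.of_cj f c (W40_1 d hp40 (c.mem f hm) (c.sq f hs))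

theorem C40 {l36 l37 l38 l40 l41 l45 l48 l49 l52 l54 l55 l66 t39 t44 t46 t47 t51 t53 t60 t63 t65 t69 t70 t71 : K} (d : Dt f) (hp40 : l40 ≠ 0) (hm : E f (l36) (l37) (l38) (t39) (l40) (l41) (t44) (l45) (t46) (t47) (l48) (l49) (t51) (l52) (t53) (l54) (l55) (t60) (t63) (t65) (l66) (t69) (t70) (t71) ∈ (sc f).G1) (hs : E f (l36) (l37) (l38) (t39) (l40) (l41) (t44) (l45) (t46) (t47) (l48) (l49) (t51) (l52) (t53) (l54) (l55) (t60) (t63) (t65) (l66) (t69) (t70) (t71) * E f (l36) (l37) (l38) (t39) (l40) (l41) (t44) (l45) (t46) (t47) (l48) (l49) (t51) (l52) (t53) (l54) (l55) (t60) (t63) (t65) (l66) (t69) (t70) (t71) = 1) : Res f (E f (l36) (l37) (l38) (t39) (l40) (l41) (t44) (l45) (t46) (t47) (l48) (l49) (t51) (l52) (t53) (l54) (l55) (t60) (t63) (t65) (l66) (t69) (t70) (t71)) := by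
  by_cases h46 : t46 = 0
  swap
  · exact C46 d h46 hm hs
  subst h46
  by_cases h39 : t39 = 0
  swap
  · exact C39 d h39 hm hs
  subst h39
  by_cases h37 : l37 = 0
  swap
  · exact C37 d h37 hm hs
  subst h37
  by_cases h36 : l36 = 0
  swap
  · exact C36 d h36 hm hs
  subst h36
  by_cases h38 : l38 = 0
  swap
  · exact C38 d h38 hm hs
  subst h38
  exact W40 d hp40 hm hs

theorem nE_W47 {l41 l45 l48 l49 l52 l54 l55 l66 t44 t47 t51 t53 t60 t63 t65 t69 t70 t71 : K} (hff : ∀ t, f (f t) = t) (it44 : f t44 = t44) (it47 : f t47 = t47) (it51 : f t51 = t51) (it53 : f t53 = t53) (it60 : f t60 = t60) (it63 : f t63 = t63) (it65 : f t65 = t65) (it69 : f t69 = t69) (it70 : f t70 = t70) (it71 : f t71 = t71) :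
    nR [0] * E f 0 0 0 0 0 (l41) (t44) (l45) 0 (t47) (l48) (l49) (t51) (l52) (t53) (l54) (l55) (t60) (t63) (t65) (l66) (t69) (t70) (t71) * (nR [0])⁻¹ = E f 0 0 0 (t47) (l48) (l49) (t51) (l52) 0 0 0 (l41) (t44) (l45) (t53 + t44*t47) (l54 + l41*(f l48) + l45*t47) (l55 + l41*t51 + l45*l48 + l49*t44) (t63) (t60) (t65 + l41*(f l49) + l49*(f l41)) (l66 + l41*(f l52) + l49*(f l45)) (t69 + l45*(f l52) + l52*(f l45)) (t71 + l41*t51*(f l49) + l41*(f l48)*(f l52) + l45*l48*(f l49) + l45*t47*(f l52) + l48*l52*(f l41) + l49*t44*(f l49) + l49*t51*(f l41) + l49*(f l45)*(f l48) + l52*t47*(f l45)) (t70 + l41*t44*(f l49) + l41*t51*(f l41) + l41*(f l45)*(f l48) + l45*l48*(f l41) + l45*t47*(f l45) + l49*t44*(f l41)) := by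
  have h2 : (2 : K) = 0 := CharTwo.two_eq_zero
  have c41 := fun t : K => nR_at (l := [0]) (s := 41) (m := 49) (by decide +kernel) t
  have c44 := fun t : K => nR_at (l := [0]) (s := 44) (m := 51) (by decide +kernel) t
  have c45 := fun t : K => nR_at (l := [0]) (s := 45) (m := 52) (by decide +kernel) t
  have c47 := fun t : K => nR_at (l := [0]) (s := 47) (m := 39) (by decide +kernel) t
  have c48 := fun t : K => nR_at (l := [0]) (s := 48) (m := 40) (by decide +kernel) t
  have c49 := fun t : K => nR_at (l := [0]) (s := 49) (m := 41) (by decide +kernel) t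
  have c50 := fun t : K => nR_at (l := [0]) (s := 50) (m := 43) (by decide +kernel) t
  have c51 := fun t : K => nR_at (l := [0]) (s := 51) (m := 44) (by decide +kernel) t
  have c52 := fun t : K => nR_at (l := [0]) (s := 52) (m := 45) (by decide +kernel) t
  have c53 := fun t : K => nR_at (l := [0]) (s := 53) (m := 53) (by decide +kernel) t
  have c54 := fun t : K => nR_at (l := [0]) (s := 54) (m := 54) (by decide +kernel) t
  have c55 := fun t : K => nR_at (l := [0]) (s := 55) (m := 55) (by decide +kernel) t
  have c58 := fun t : K => nR_at (l := [0]) (s := 58) (m := 61) (by decide +kernel) t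
  have c59 := fun t : K => nR_at (l := [0]) (s := 59) (m := 62) (by decide +kernel) t
  have c60 := fun t : K => nR_at (l := [0]) (s := 60) (m := 63) (by decide +kernel) t
  have c61 := fun t : K => nR_at (l := [0]) (s := 61) (m := 58) (by decide +kernel) t
  have c62 := fun t : K => nR_at (l := [0]) (s := 62) (m := 59) (by decide +kernel) t
  have c63 := fun t : K => nR_at (l := [0]) (s := 63) (m := 60) (by decide +kernel) t
  have c64 := fun t : K => nR_at (l := [0]) (s := 64) (m := 64) (by decide +kernel) t
  have c65 := fun t : K => nR_at (l := [0]) (s := 65) (m := 65) (by decide +kernel) t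
  have c66 := fun t : K => nR_at (l := [0]) (s := 66) (m := 66) (by decide +kernel) t
  have c67 := fun t : K => nR_at (l := [0]) (s := 67) (m := 67) (by decide +kernel) t
  have c68 := fun t : K => nR_at (l := [0]) (s := 68) (m := 68) (by decide +kernel) t
  have c69 := fun t : K => nR_at (l := [0]) (s := 69) (m := 69) (by decide +kernel) t
  have c70 := fun t : K => nR_at (l := [0]) (s := 70) (m := 71) (by decide +kernel) t
  have c71 := fun t : K => nR_at (l := [0]) (s := 71) (m := 70) (by decide +kernel) t
  unfold E
  rw [conj_W]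
  simp only [map_zero, zero_mul, mul_zero, add_zero, zero_add, conj_x0, one_mul, c41, c44, c45, c47, c48, c49, c50, c51, c52, c53, c54, c55, c58, c59, c60, c61, c62, c63, c64, c65, c66, c67, c68, c69, c70, c71]
  rw [← W_zero (K := K)]
  simp only [xW_39, xW_40, xW_41, xW_43, xW_44, xW_45, xW_49, xW_51, xW_52, xW_53, xW_54, xW_55, xW_58, xW_59, xW_60, xW_61, xW_62, xW_63, xW_64, xW_65, xW_66, xW_67, xW_68, xW_69, xW_70, xW_71, zero_mul, mul_zero, add_zero, zero_add]
  first
    | done
    | apply W_congr
      · (try simp only [map_add, map_mul, map_pow, map_zero, map_one, hff, it44, it47, it51, it53, it60, it63, it65, it69, it70, it71]) <;> linear_combination (0 : K) * h2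
      · (try simp only [map_add, map_mul, map_pow, map_zero, map_one, hff, it44, it47, it51, it53, it60, it63, it65, it69, it70, it71]) <;> linear_combination (0 : K) * h2
      · (try simp only [map_add, map_mul, map_pow, map_zero, map_one, hff, it44, it47, it51, it53, it60, it63, it65, it69, it70, it71]) <;> linear_combination (0 : K) * h2
      · (try simp only [map_add, map_mul, map_pow, map_zero, map_one, hff, it44, it47, it51, it53, it60, it63, it65, it69, it70, it71]) <;> linear_combination (0 : K) * h2
      · (try simp only [map_add, map_mul, map_pow, map_zero, map_one, hff, it44, it47, it51, it53, it60, it63, it65, it69, it70, it71]) <;> linear_combination (0 : K) * h2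
      · (try simp only [map_add, map_mul, map_pow, map_zero, map_one, hff, it44, it47, it51, it53, it60, it63, it65, it69, it70, it71]) <;> linear_combination (0 : K) * h2
      · (try simp only [map_add, map_mul, map_pow, map_zero, map_one, hff, it44, it47, it51, it53, it60, it63, it65, it69, it70, it71]) <;> linear_combination (0 : K) * h2
      · (try simp only [map_add, map_mul, map_pow, map_zero, map_one, hff, it44, it47, it51, it53, it60, it63, it65, it69, it70, it71]) <;> linear_combination (0 : K) * h2
      · (try simp only [map_add, map_mul, map_pow, map_zero, map_one, hff, it44, it47, it51, it53, it60, it63, it65, it69, it70, it71]) <;> linear_combination (0 : K) * h2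
      · (try simp only [map_add, map_mul, map_pow, map_zero, map_one, hff, it44, it47, it51, it53, it60, it63, it65, it69, it70, it71]) <;> linear_combination (0 : K) * h2
      · (try simp only [map_add, map_mul, map_pow, map_zero, map_one, hff, it44, it47, it51, it53, it60, it63, it65, it69, it70, it71]) <;> linear_combination (0 : K) * h2
      · (try simp only [map_add, map_mul, map_pow, map_zero, map_one, hff, it44, it47, it51, it53, it60, it63, it65, it69, it70, it71]) <;> linear_combination (0 : K) * h2
      · (try simp only [map_add, map_mul, map_pow, map_zero, map_one, hff, it44, it47, it51, it53, it60, it63, it65, it69, it70, it71]) <;> linear_combination (0 : K) * h2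
      · (try simp only [map_add, map_mul, map_pow, map_zero, map_one, hff, it44, it47, it51, it53, it60, it63, it65, it69, it70, it71]) <;> linear_combination (0 : K) * h2
      · (try simp only [map_add, map_mul, map_pow, map_zero, map_one, hff, it44, it47, it51, it53, it60, it63, it65, it69, it70, it71]) <;> linear_combination (0 : K) * h2
      · (try simp only [map_add, map_mul, map_pow, map_zero, map_one, hff, it44, it47, it51, it53, it60, it63, it65, it69, it70, it71]) <;> linear_combination (0 : K) * h2
      · (try simp only [map_add, map_mul, map_pow, map_zero, map_one, hff, it44, it47, it51, it53, it60, it63, it65, it69, it70, it71]) <;> linear_combination (0 : K) * h2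
      · (try simp only [map_add, map_mul, map_pow, map_zero, map_one, hff, it44, it47, it51, it53, it60, it63, it65, it69, it70, it71]) <;> linear_combination (0 : K) * h2
      · (try simp only [map_add, map_mul, map_pow, map_zero, map_one, hff, it44, it47, it51, it53, it60, it63, it65, it69, it70, it71]) <;> linear_combination (0 : K) * h2
      · (try simp only [map_add, map_mul, map_pow, map_zero, map_one, hff, it44, it47, it51, it53, it60, it63, it65, it69, it70, it71]) <;> linear_combination (0 : K) * h2
      · (try simp only [map_add, map_mul, map_pow, map_zero, map_one, hff, it44, it47, it51, it53, it60, it63, it65, it69, it70, it71]) <;> linear_combination (0 : K) * h2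
      · (try simp only [map_add, map_mul, map_pow, map_zero, map_one, hff, it44, it47, it51, it53, it60, it63, it65, it69, it70, it71]) <;> linear_combination (0 : K) * h2
      · (try simp only [map_add, map_mul, map_pow, map_zero, map_one, hff, it44, it47, it51, it53, it60, it63, it65, it69, it70, it71]) <;> linear_combination (0 : K) * h2
      · (try simp only [map_add, map_mul, map_pow, map_zero, map_one, hff, it44, it47, it51, it53, it60, it63, it65, it69, it70, it71]) <;> linear_combination (0 : K) * h2
      · (try simp only [map_add, map_mul, map_pow, map_zero, map_one, hff, it44, it47, it51, it53, it60, it63, it65, it69, it70, it71]) <;> linear_combination (0 : K) * h2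
      · (try simp only [map_add, map_mul, map_pow, map_zero, map_one, hff, it44, it47, it51, it53, it60, it63, it65, it69, it70, it71]) <;> linear_combination (0 : K) * h2
      · (try simp only [map_add, map_mul, map_pow, map_zero, map_one, hff, it44, it47, it51, it53, it60, it63, it65, it69, it70, it71]) <;> linear_combination (0 : K) * h2
      · (try simp only [map_add, map_mul, map_pow, map_zero, map_one, hff, it44, it47, it51, it53, it60, it63, it65, it69, it70, it71]) <;> linear_combination (0 : K) * h2
      · (try simp only [map_add, map_mul, map_pow, map_zero, map_one, hff, it44, it47, it51, it53, it60, it63, it65, it69, it70, it71]) <;> linear_combination (0 : K) * h2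
      · (try simp only [map_add, map_mul, map_pow, map_zero, map_one, hff, it44, it47, it51, it53, it60, it63, it65, it69, it70, it71]) <;> linear_combination (-l41*(f l49)) * h2
      · (try simp only [map_add, map_mul, map_pow, map_zero, map_one, hff, it44, it47, it51, it53, it60, it63, it65, it69, it70, it71]) <;> linear_combination (-l41*(f l52)) * h2
      · (try simp only [map_add, map_mul, map_pow, map_zero, map_one, hff, it44, it47, it51, it53, it60, it63, it65, it69, it70, it71]) <;> linear_combination (-t44*(f l49)) * h2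
      · (try simp only [map_add, map_mul, map_pow, map_zero, map_one, hff, it44, it47, it51, it53, it60, it63, it65, it69, it70, it71]) <;> linear_combination (-l45*(f l49)) * h2
      · (try simp only [map_add, map_mul, map_pow, map_zero, map_one, hff, it44, it47, it51, it53, it60, it63, it65, it69, it70, it71]) <;> linear_combination (-l45*(f l52)) * h2
      · (try simp only [map_add, map_mul, map_pow, map_zero, map_one, hff, it44, it47, it51, it53, it60, it63, it65, it69, it70, it71]) <;> linear_combination (-l41*t51*(f l49) - l41*(f l48)*(f l52) - l45*l48*(f l49) - l45*t47*(f l52) - l49*t44*(f l49)) * h2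
      · (try simp only [map_add, map_mul, map_pow, map_zero, map_one, hff, it44, it47, it51, it53, it60, it63, it65, it69, it70, it71]) <;> linear_combination (-l41*t44*(f l49) - l41*t51*(f l41) - l41*(f l45)*(f l48) - l45*l48*(f l41) - l45*t47*(f l45) - l49*t44*(f l41)) * h2

theorem W47_1 {l40 l41 l45 l49 l52 l54 l55 l66 t39 t44 t51 t53 t60 t63 t65 t69 t70 t71 : K} (d : Dt f) (hp39 : t39 ≠ 0) (hm : E f 0 0 0 (t39) (l40) (l41) (t44) (l45) 0 0 0 (l49) (t51) (l52) (t53) (l54) (l55) (t60) (t63) (t65) (l66) (t69) (t70) (t71) ∈ (sc f).G1) (hs : E f 0 0 0 (t39) (l40) (l41) (t44) (l45) 0 0 0 (l49) (t51) (l52) (t53) (l54) (l55) (t60) (t63) (t65) (l66) (t69) (t70) (t71) * E f 0 0 0 (t39) (l40) (l41) (t44) (l45) 0 0 0 (l49) (t51) (l52) (t53) (l54) (l55) (t60) (t63) (t65) (l66) (t69) (t70) (t71) = 1) : Res f (E f 0 0 0 (t39) (l40) (l41) (t44) (l45) 0 0 0 (l49) (t51) (l52) (t53) (l54) (l55) (t60) (t63) (t65) (l66) (t69) (t70) (t71)) := by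
  exact C39 d hp39 hm hs

theorem W47 {l41 l45 l48 l49 l52 l54 l55 l66 t44 t47 t51 t53 t60 t63 t65 t69 t70 t71 : K} (d : Dt f) (hp47 : t47 ≠ 0) (hm : E f 0 0 0 0 0 (l41) (t44) (l45) 0 (t47) (l48) (l49) (t51) (l52) (t53) (l54) (l55) (t60) (t63) (t65) (l66) (t69) (t70) (t71) ∈ (sc f).G1) (hs : E f 0 0 0 0 0 (l41) (t44) (l45) 0 (t47) (l48) (l49) (t51) (l52) (t53) (l54) (l55) (t60) (t63) (t65) (l66) (t69) (t70) (t71) * E f 0 0 0 0 0 (l41) (t44) (l45) 0 (t47) (l48) (l49) (t51) (l52) (t53) (l54) (l55) (t60) (t63) (t65) (l66) (t69) (t70) (t71) = 1) : Res f (E f 0 0 0 0 0 (l41) (t44) (l45) 0 (t47) (l48) (l49) (t51) (l52) (t53) (l54) (l55) (t60) (t63) (t65) (l66) (t69) (t70) (t71)) := by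
  obtain ⟨it39, it44, it46, it47, it51, it53, it60, it63, it65, it69, it70, it71⟩ := inv_of_mem d hm
  have c : Cj f (E f 0 0 0 0 0 (l41) (t44) (l45) 0 (t47) (l48) (l49) (t51) (l52) (t53) (l54) (l55) (t60) (t63) (t65) (l66) (t69) (t70) (t71)) (E f 0 0 0 (t47) (l48) (l49) (t51) (l52) 0 0 0 (l41) (t44) (l45) (t53 + t44*t47) (l54 + l41*(f l48) + l45*t47) (l55 + l41*t51 + l45*l48 + l49*t44) (t63) (t60) (t65 + l41*(f l49) + l49*(f l41)) (l66 + l41*(f l52) + l49*(f l45)) (t69 + l45*(f l52) + l52*(f l45)) (t71 + l41*t51*(f l49) + l41*(f l48)*(f l52) + l45*l48*(f l49) + l45*t47*(f l52) + l48*l52*(f l41) + l49*t44*(f l49) + l49*t51*(f l41) + l49*(f l45)*(f l48) + l52*t47*(f l45)) (t70 + l41*t44*(f l49) + l41*t51*(f l41) + l41*(f l45)*(f l48) + l45*l48*(f l41) + l45*t47*(f l45) + l49*t44*(f l41))) := cjN f (nR_mem f [0]) (nE_W47 d.hff it44 it47 it51 it53 it60 it63 it65 it69 it70 it71)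
  exact Res.of_cj f c (W47_1 d hp47 (c.mem f hm) (c.sq f hs))

theorem C47 {l36 l37 l38 l40 l41 l45 l48 l49 l52 l54 l55 l66 t39 t44 t46 t47 t51 t53 t60 t63 t65 t69 t70 t71 : K} (d : Dt f) (hp47 : t47 ≠ 0) (hm : E f (l36) (l37) (l38) (t39) (l40) (l41) (t44) (l45) (t46) (t47) (l48) (l49) (t51) (l52) (t53) (l54) (l55) (t60) (t63) (t65) (l66) (t69) (t70) (t71) ∈ (sc f).G1) (hs : E f (l36) (l37) (l38) (t39) (l40) (l41) (t44) (l45) (t46) (t47) (l48) (l49) (t51) (l52) (t53) (l54) (l55) (t60) (t63) (t65) (l66) (t69) (t70) (t71) * E f (l36) (l37) (l38) (t39) (l40) (l41) (t44) (l45) (t46) (t47) (l48) (l49) (t51) (l52) (t53) (l54) (l55) (t60) (t63) (t65) (l66) (t69) (t70) (t71) = 1) : Res f (E f (l36) (l37) (l38) (t39) (l40) (l41) (t44) (l45) (t46) (t47) (l48) (l49) (t51) (l52) (t53) (l54) (l55) (t60) (t63) (t65) (l66) (t69) (t70) (t71)) := by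
  by_cases h46 : t46 = 0
  swap
  · exact C46 d h46 hm hs
  subst h46
  by_cases h39 : t39 = 0
  swap
  · exact C39 d h39 hm hs
  subst h39
  by_cases h37 : l37 = 0
  swap
  · exact C37 d h37 hm hs
  subst h37
  by_cases h36 : l36 = 0
  swap
  · exact C36 d h36 hm hs
  subst h36
  by_cases h38 : l38 = 0
  swap
  · exact C38 d h38 hm hs
  subst h38
  by_cases h40 : l40 = 0
  swap
  · exact C40 d h40 hm hs
  subst h40
  exact W47 d hp47 hm hs

theorem nE_W41 {l41 l45 l48 l49 l52 l54 l55 l66 t44 t51 t53 t60 t63 t65 t69 t70 t71 : K} (hff : ∀ t, f (f t) = t) (it44 : f t44 = t44) (it51 : f t51 = t51) (it53 : f t53 = t53) (it60 : f t60 = t60) (it63 : f t63 = t63) (it65 : f t65 = t65) (it69 : f t69 = t69) (it70 : f t70 = t70) (it71 : f t71 = t71) :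
    nR [1] * E f 0 0 0 0 0 (l41) (t44) (l45) 0 0 (l48) (l49) (t51) (l52) (t53) (l54) (l55) (t60) (t63) (t65) (l66) (t69) (t70) (t71) * (nR [1])⁻¹ = E f 0 0 (l41) 0 0 0 (t44) (l45) 0 0 (l48) (l49) (t53) (l54) (t51) (l52) (l55) (t60) (t65) (t63) (l66) (t70) (t69) (t71 + l52*(f l54) + l54*(f l52)) := by
  have h2 : (2 : K) = 0 := CharTwo.two_eq_zero
  have c41 := fun t : K => nR_at (l := [1]) (s := 41) (m := 38) (by decide +kernel) t
  have c44 := fun t : K => nR_at (l := [1]) (s := 44) (m := 44) (by decide +kernel) t
  have c45 := fun t : K => nR_at (l := [1]) (s := 45) (m := 45) (by decide +kernel) t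
  have c48 := fun t : K => nR_at (l := [1]) (s := 48) (m := 48) (by decide +kernel) t
  have c49 := fun t : K => nR_at (l := [1]) (s := 49) (m := 49) (by decide +kernel) t
  have c50 := fun t : K => nR_at (l := [1]) (s := 50) (m := 50) (by decide +kernel) t
  have c51 := fun t : K => nR_at (l := [1]) (s := 51) (m := 53) (by decide +kernel) t
  have c52 := fun t : K => nR_at (l := [1]) (s := 52) (m := 54) (by decide +kernel) t
  have c53 := fun t : K => nR_at (l := [1]) (s := 53) (m := 51) (by decide +kernel) t
  have c54 := fun t : K => nR_at (l := [1]) (s := 54) (m := 52) (by decide +kernel) t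
  have c55 := fun t : K => nR_at (l := [1]) (s := 55) (m := 55) (by decide +kernel) t
  have c58 := fun t : K => nR_at (l := [1]) (s := 58) (m := 57) (by decide +kernel) t
  have c59 := fun t : K => nR_at (l := [1]) (s := 59) (m := 59) (by decide +kernel) t
  have c60 := fun t : K => nR_at (l := [1]) (s := 60) (m := 60) (by decide +kernel) t
  have c61 := fun t : K => nR_at (l := [1]) (s := 61) (m := 61) (by decide +kernel) t
  have c62 := fun t : K => nR_at (l := [1]) (s := 62) (m := 64) (by decide +kernel) t
  have c63 := fun t : K => nR_at (l := [1]) (s := 63) (m := 65) (by decide +kernel) t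
  have c64 := fun t : K => nR_at (l := [1]) (s := 64) (m := 62) (by decide +kernel) t
  have c65 := fun t : K => nR_at (l := [1]) (s := 65) (m := 63) (by decide +kernel) t
  have c66 := fun t : K => nR_at (l := [1]) (s := 66) (m := 66) (by decide +kernel) t
  have c67 := fun t : K => nR_at (l := [1]) (s := 67) (m := 67) (by decide +kernel) t
  have c68 := fun t : K => nR_at (l := [1]) (s := 68) (m := 68) (by decide +kernel) t
  have c69 := fun t : K => nR_at (l := [1]) (s := 69) (m := 70) (by decide +kernel) t
  have c70 := fun t : K => nR_at (l := [1]) (s := 70) (m := 69) (by decide +kernel) t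
  have c71 := fun t : K => nR_at (l := [1]) (s := 71) (m := 71) (by decide +kernel) t
  unfold E
  rw [conj_W]
  simp only [map_zero, zero_mul, mul_zero, add_zero, zero_add, conj_x0, one_mul, c41, c44, c45, c48, c49, c50, c51, c52, c53, c54, c55, c58, c59, c60, c61, c62, c63, c64, c65, c66, c67, c68, c69, c70, c71]
  rw [← W_zero (K := K)]
  simp only [xW_38, xW_44, xW_45, xW_48, xW_49, xW_50, xW_51, xW_52, xW_53, xW_54, xW_55, xW_57, xW_59, xW_60, xW_61, xW_62, xW_63, xW_64, xW_65, xW_66, xW_67, xW_68, xW_69, xW_70, xW_71, zero_mul, mul_zero, add_zero, zero_add]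
  first
    | done
    | apply W_congr
      · (try simp only [map_add, map_mul, map_pow, map_zero, map_one, hff, it44, it51, it53, it60, it63, it65, it69, it70, it71]) <;> linear_combination (0 : K) * h2
      · (try simp only [map_add, map_mul, map_pow, map_zero, map_one, hff, it44, it51, it53, it60, it63, it65, it69, it70, it71]) <;> linear_combination (0 : K) * h2
      · (try simp only [map_add, map_mul, map_pow, map_zero, map_one, hff, it44, it51, it53, it60, it63, it65, it69, it70, it71]) <;> linear_combination (0 : K) * h2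
      · (try simp only [map_add, map_mul, map_pow, map_zero, map_one, hff, it44, it51, it53, it60, it63, it65, it69, it70, it71]) <;> linear_combination (0 : K) * h2
      · (try simp only [map_add, map_mul, map_pow, map_zero, map_one, hff, it44, it51, it53, it60, it63, it65, it69, it70, it71]) <;> linear_combination (0 : K) * h2
      · (try simp only [map_add, map_mul, map_pow, map_zero, map_one, hff, it44, it51, it53, it60, it63, it65, it69, it70, it71]) <;> linear_combination (0 : K) * h2
      · (try simp only [map_add, map_mul, map_pow, map_zero, map_one, hff, it44, it51, it53, it60, it63, it65, it69, it70, it71]) <;> linear_combination (0 : K) * h2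
      · (try simp only [map_add, map_mul, map_pow, map_zero, map_one, hff, it44, it51, it53, it60, it63, it65, it69, it70, it71]) <;> linear_combination (0 : K) * h2
      · (try simp only [map_add, map_mul, map_pow, map_zero, map_one, hff, it44, it51, it53, it60, it63, it65, it69, it70, it71]) <;> linear_combination (0 : K) * h2
      · (try simp only [map_add, map_mul, map_pow, map_zero, map_one, hff, it44, it51, it53, it60, it63, it65, it69, it70, it71]) <;> linear_combination (0 : K) * h2
      · (try simp only [map_add, map_mul, map_pow, map_zero, map_one, hff, it44, it51, it53, it60, it63, it65, it69, it70, it71]) <;> linear_combination (0 : K) * h2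
      · (try simp only [map_add, map_mul, map_pow, map_zero, map_one, hff, it44, it51, it53, it60, it63, it65, it69, it70, it71]) <;> linear_combination (0 : K) * h2
      · (try simp only [map_add, map_mul, map_pow, map_zero, map_one, hff, it44, it51, it53, it60, it63, it65, it69, it70, it71]) <;> linear_combination (0 : K) * h2
      · (try simp only [map_add, map_mul, map_pow, map_zero, map_one, hff, it44, it51, it53, it60, it63, it65, it69, it70, it71]) <;> linear_combination (0 : K) * h2
      · (try simp only [map_add, map_mul, map_pow, map_zero, map_one, hff, it44, it51, it53, it60, it63, it65, it69, it70, it71]) <;> linear_combination (0 : K) * h2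
      · (try simp only [map_add, map_mul, map_pow, map_zero, map_one, hff, it44, it51, it53, it60, it63, it65, it69, it70, it71]) <;> linear_combination (0 : K) * h2
      · (try simp only [map_add, map_mul, map_pow, map_zero, map_one, hff, it44, it51, it53, it60, it63, it65, it69, it70, it71]) <;> linear_combination (0 : K) * h2
      · (try simp only [map_add, map_mul, map_pow, map_zero, map_one, hff, it44, it51, it53, it60, it63, it65, it69, it70, it71]) <;> linear_combination (0 : K) * h2
      · (try simp only [map_add, map_mul, map_pow, map_zero, map_one, hff, it44, it51, it53, it60, it63, it65, it69, it70, it71]) <;> linear_combination (0 : K) * h2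
      · (try simp only [map_add, map_mul, map_pow, map_zero, map_one, hff, it44, it51, it53, it60, it63, it65, it69, it70, it71]) <;> linear_combination (0 : K) * h2
      · (try simp only [map_add, map_mul, map_pow, map_zero, map_one, hff, it44, it51, it53, it60, it63, it65, it69, it70, it71]) <;> linear_combination (0 : K) * h2
      · (try simp only [map_add, map_mul, map_pow, map_zero, map_one, hff, it44, it51, it53, it60, it63, it65, it69, it70, it71]) <;> linear_combination (0 : K) * h2
      · (try simp only [map_add, map_mul, map_pow, map_zero, map_one, hff, it44, it51, it53, it60, it63, it65, it69, it70, it71]) <;> linear_combination (0 : K) * h2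
      · (try simp only [map_add, map_mul, map_pow, map_zero, map_one, hff, it44, it51, it53, it60, it63, it65, it69, it70, it71]) <;> linear_combination (0 : K) * h2
      · (try simp only [map_add, map_mul, map_pow, map_zero, map_one, hff, it44, it51, it53, it60, it63, it65, it69, it70, it71]) <;> linear_combination (0 : K) * h2
      · (try simp only [map_add, map_mul, map_pow, map_zero, map_one, hff, it44, it51, it53, it60, it63, it65, it69, it70, it71]) <;> linear_combination (0 : K) * h2
      · (try simp only [map_add, map_mul, map_pow, map_zero, map_one, hff, it44, it51, it53, it60, it63, it65, it69, it70, it71]) <;> linear_combination (0 : K) * h2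
      · (try simp only [map_add, map_mul, map_pow, map_zero, map_one, hff, it44, it51, it53, it60, it63, it65, it69, it70, it71]) <;> linear_combination (0 : K) * h2
      · (try simp only [map_add, map_mul, map_pow, map_zero, map_one, hff, it44, it51, it53, it60, it63, it65, it69, it70, it71]) <;> linear_combination (0 : K) * h2
      · (try simp only [map_add, map_mul, map_pow, map_zero, map_one, hff, it44, it51, it53, it60, it63, it65, it69, it70, it71]) <;> linear_combination (0 : K) * h2
      · (try simp only [map_add, map_mul, map_pow, map_zero, map_one, hff, it44, it51, it53, it60, it63, it65, it69, it70, it71]) <;> linear_combination (0 : K) * h2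
      · (try simp only [map_add, map_mul, map_pow, map_zero, map_one, hff, it44, it51, it53, it60, it63, it65, it69, it70, it71]) <;> linear_combination (0 : K) * h2
      · (try simp only [map_add, map_mul, map_pow, map_zero, map_one, hff, it44, it51, it53, it60, it63, it65, it69, it70, it71]) <;> linear_combination (0 : K) * h2
      · (try simp only [map_add, map_mul, map_pow, map_zero, map_one, hff, it44, it51, it53, it60, it63, it65, it69, it70, it71]) <;> linear_combination (0 : K) * h2
      · (try simp only [map_add, map_mul, map_pow, map_zero, map_one, hff, it44, it51, it53, it60, it63, it65, it69, it70, it71]) <;> linear_combination (0 : K) * h2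
      · (try simp only [map_add, map_mul, map_pow, map_zero, map_one, hff, it44, it51, it53, it60, it63, it65, it69, it70, it71]) <;> linear_combination (-l52*(f l54)) * h2

theorem W41_1 {l38 l45 l48 l49 l52 l54 l55 l66 t44 t51 t53 t60 t63 t65 t69 t70 t71 : K} (d : Dt f) (hp38 : l38 ≠ 0) (hm : E f 0 0 (l38) 0 0 0 (t44) (l45) 0 0 (l48) (l49) (t51) (l52) (t53) (l54) (l55) (t60) (t63) (t65) (l66) (t69) (t70) (t71) ∈ (sc f).G1) (hs : E f 0 0 (l38) 0 0 0 (t44) (l45) 0 0 (l48) (l49) (t51) (l52) (t53) (l54) (l55) (t60) (t63) (t65) (l66) (t69) (t70) (t71) * E f 0 0 (l38) 0 0 0 (t44) (l45) 0 0 (l48) (l49) (t51) (l52) (t53) (l54) (l55) (t60) (t63) (t65) (l66) (t69) (t70) (t71) = 1) : Res f (E f 0 0 (l38) 0 0 0 (t44) (l45) 0 0 (l48) (l49) (t51) (l52) (t53) (l54) (l55) (t60) (t63) (t65) (l66) (t69) (t70) (t71)) := by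
  exact C38 d hp38 hm hs

theorem W41 {l41 l45 l48 l49 l52 l54 l55 l66 t44 t51 t53 t60 t63 t65 t69 t70 t71 : K} (d : Dt f) (hp41 : l41 ≠ 0) (hm : E f 0 0 0 0 0 (l41) (t44) (l45) 0 0 (l48) (l49) (t51) (l52) (t53) (l54) (l55) (t60) (t63) (t65) (l66) (t69) (t70) (t71) ∈ (sc f).G1) (hs : E f 0 0 0 0 0 (l41) (t44) (l45) 0 0 (l48) (l49) (t51) (l52) (t53) (l54) (l55) (t60) (t63) (t65) (l66) (t69) (t70) (t71) * E f 0 0 0 0 0 (l41) (t44) (l45) 0 0 (l48) (l49) (t51) (l52) (t53) (l54) (l55) (t60) (t63) (t65) (l66) (t69) (t70) (t71) = 1) : Res f (E f 0 0 0 0 0 (l41) (t44) (l45) 0 0 (l48) (l49) (t51) (l52) (t53) (l54) (l55) (t60) (t63) (t65) (l66) (t69) (t70) (t71)) := by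
  obtain ⟨it39, it44, it46, it47, it51, it53, it60, it63, it65, it69, it70, it71⟩ := inv_of_mem d hm
  have c : Cj f (E f 0 0 0 0 0 (l41) (t44) (l45) 0 0 (l48) (l49) (t51) (l52) (t53) (l54) (l55) (t60) (t63) (t65) (l66) (t69) (t70) (t71)) (E f 0 0 (l41) 0 0 0 (t44) (l45) 0 0 (l48) (l49) (t53) (l54) (t51) (l52) (l55) (t60) (t65) (t63) (l66) (t70) (t69) (t71 + l52*(f l54) + l54*(f l52))) := cjN f (nR_mem f [1]) (nE_W41 d.hff it44 it51 it53 it60 it63 it65 it69 it70 it71)
  exact Res.of_cj f c (W41_1 d hp41 (c.mem f hm) (c.sq f hs))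

theorem C41 {l36 l37 l38 l40 l41 l45 l48 l49 l52 l54 l55 l66 t39 t44 t46 t47 t51 t53 t60 t63 t65 t69 t70 t71 : K} (d : Dt f) (hp41 : l41 ≠ 0) (hm : E f (l36) (l37) (l38) (t39) (l40) (l41) (t44) (l45) (t46) (t47) (l48) (l49) (t51) (l52) (t53) (l54) (l55) (t60) (t63) (t65) (l66) (t69) (t70) (t71) ∈ (sc f).G1) (hs : E f (l36) (l37) (l38) (t39) (l40) (l41) (t44) (l45) (t46) (t47) (l48) (l49) (t51) (l52) (t53) (l54) (l55) (t60) (t63) (t65) (l66) (t69) (t70) (t71) * E f (l36) (l37) (l38) (t39) (l40) (l41) (t44) (l45) (t46) (t47) (l48) (l49) (t51) (l52) (t53) (l54) (l55) (t60) (t63) (t65) (l66) (t69) (t70) (t71) = 1) : Res f (E f (l36) (l37) (l38) (t39) (l40) (l41) (t44) (l45) (t46) (t47) (l48) (l49) (t51) (l52) (t53) (l54) (l55) (t60) (t63) (t65) (l66) (t69) (t70) (t71)) := by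
  by_cases h46 : t46 = 0
  swap
  · exact C46 d h46 hm hs
  subst h46
  by_cases h39 : t39 = 0
  swap
  · exact C39 d h39 hm hs
  subst h39
  by_cases h37 : l37 = 0
  swap
  · exact C37 d h37 hm hs
  subst h37
  by_cases h36 : l36 = 0
  swap
  · exact C36 d h36 hm hs
  subst h36
  by_cases h38 : l38 = 0
  swap
  · exact C38 d h38 hm hs
  subst h38
  by_cases h40 : l40 = 0
  swap
  · exact C40 d h40 hm hs
  subst h40
  by_cases h47 : t47 = 0
  swap
  · exact C47 d h47 hm hs
  subst h47
  exact W41 d hp41 hm hs

theorem nE_W44 {l45 l48 l49 l52 l54 l55 l66 t44 t51 t53 t60 t63 t65 t69 t70 t71 : K} (hff : ∀ t, f (f t) = t) (it44 : f t44 = t44) (it51 : f t51 = t51) (it53 : f t53 = t53) (it60 : f t60 = t60) (it63 : f t63 = t63) (it65 : f t65 = t65) (it69 : f t69 = t69) (it70 : f t70 = t70) (it71 : f t71 = t71) :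
    nR [2] * E f 0 0 0 0 0 0 (t44) (l45) 0 0 (l48) (l49) (t51) (l52) (t53) (l54) (l55) (t60) (t63) (t65) (l66) (t69) (t70) (t71) * (nR [2])⁻¹ = E f 0 0 0 (t44) 0 (l45) 0 0 0 (t51) ((f l48)) (l52) 0 (l49) (t53) (l55) (l54) (t60) (t63) (t69) ((f l66)) (t65) (t70) (t71) := by
  have h2 : (2 : K) = 0 := CharTwo.two_eq_zero
  have c44 := fun t : K => nR_at (l := [2]) (s := 44) (m := 39) (by decide +kernel) t
  have c45 := fun t : K => nR_at (l := [2]) (s := 45) (m := 41) (by decide +kernel) t
  have c48 := fun t : K => nR_at (l := [2]) (s := 48) (m := 50) (by decide +kernel) t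
  have c49 := fun t : K => nR_at (l := [2]) (s := 49) (m := 52) (by decide +kernel) t
  have c50 := fun t : K => nR_at (l := [2]) (s := 50) (m := 48) (by decide +kernel) t
  have c51 := fun t : K => nR_at (l := [2]) (s := 51) (m := 47) (by decide +kernel) t
  have c52 := fun t : K => nR_at (l := [2]) (s := 52) (m := 49) (by decide +kernel) t
  have c53 := fun t : K => nR_at (l := [2]) (s := 53) (m := 53) (by decide +kernel) t
  have c54 := fun t : K => nR_at (l := [2]) (s := 54) (m := 55) (by decide +kernel) t
  have c55 := fun t : K => nR_at (l := [2]) (s := 55) (m := 54) (by decide +kernel) t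
  have c59 := fun t : K => nR_at (l := [2]) (s := 59) (m := 58) (by decide +kernel) t
  have c60 := fun t : K => nR_at (l := [2]) (s := 60) (m := 60) (by decide +kernel) t
  have c61 := fun t : K => nR_at (l := [2]) (s := 61) (m := 62) (by decide +kernel) t
  have c62 := fun t : K => nR_at (l := [2]) (s := 62) (m := 61) (by decide +kernel) t
  have c63 := fun t : K => nR_at (l := [2]) (s := 63) (m := 63) (by decide +kernel) t
  have c64 := fun t : K => nR_at (l := [2]) (s := 64) (m := 67) (by decide +kernel) t
  have c65 := fun t : K => nR_at (l := [2]) (s := 65) (m := 69) (by decide +kernel) t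
  have c66 := fun t : K => nR_at (l := [2]) (s := 66) (m := 68) (by decide +kernel) t
  have c67 := fun t : K => nR_at (l := [2]) (s := 67) (m := 64) (by decide +kernel) t
  have c68 := fun t : K => nR_at (l := [2]) (s := 68) (m := 66) (by decide +kernel) t
  have c69 := fun t : K => nR_at (l := [2]) (s := 69) (m := 65) (by decide +kernel) t
  have c70 := fun t : K => nR_at (l := [2]) (s := 70) (m := 70) (by decide +kernel) t
  have c71 := fun t : K => nR_at (l := [2]) (s := 71) (m := 71) (by decide +kernel) t
  unfold E
  rw [conj_W]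
  simp only [map_zero, zero_mul, mul_zero, add_zero, zero_add, conj_x0, one_mul, c44, c45, c48, c49, c50, c51, c52, c53, c54, c55, c59, c60, c61, c62, c63, c64, c65, c66, c67, c68, c69, c70, c71]
  rw [← W_zero (K := K)]
  simp only [xW_39, xW_41, xW_47, xW_48, xW_49, xW_50, xW_52, xW_53, xW_54, xW_55, xW_58, xW_60, xW_61, xW_62, xW_63, xW_64, xW_65, xW_66, xW_67, xW_68, xW_69, xW_70, xW_71, zero_mul, mul_zero, add_zero, zero_add]
  first
    | done
    | apply W_congr
      · (try simp only [map_add, map_mul, map_pow, map_zero, map_one, hff, it44, it51, it53, it60, it63, it65, it69, it70, it71]) <;> linear_combination (0 : K) * h2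
      · (try simp only [map_add, map_mul, map_pow, map_zero, map_one, hff, it44, it51, it53, it60, it63, it65, it69, it70, it71]) <;> linear_combination (0 : K) * h2
      · (try simp only [map_add, map_mul, map_pow, map_zero, map_one, hff, it44, it51, it53, it60, it63, it65, it69, it70, it71]) <;> linear_combination (0 : K) * h2
      · (try simp only [map_add, map_mul, map_pow, map_zero, map_one, hff, it44, it51, it53, it60, it63, it65, it69, it70, it71]) <;> linear_combination (0 : K) * h2
      · (try simp only [map_add, map_mul, map_pow, map_zero, map_one, hff, it44, it51, it53, it60, it63, it65, it69, it70, it71]) <;> linear_combination (0 : K) * h2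
      · (try simp only [map_add, map_mul, map_pow, map_zero, map_one, hff, it44, it51, it53, it60, it63, it65, it69, it70, it71]) <;> linear_combination (0 : K) * h2
      · (try simp only [map_add, map_mul, map_pow, map_zero, map_one, hff, it44, it51, it53, it60, it63, it65, it69, it70, it71]) <;> linear_combination (0 : K) * h2
      · (try simp only [map_add, map_mul, map_pow, map_zero, map_one, hff, it44, it51, it53, it60, it63, it65, it69, it70, it71]) <;> linear_combination (0 : K) * h2
      · (try simp only [map_add, map_mul, map_pow, map_zero, map_one, hff, it44, it51, it53, it60, it63, it65, it69, it70, it71]) <;> linear_combination (0 : K) * h2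
      · (try simp only [map_add, map_mul, map_pow, map_zero, map_one, hff, it44, it51, it53, it60, it63, it65, it69, it70, it71]) <;> linear_combination (0 : K) * h2
      · (try simp only [map_add, map_mul, map_pow, map_zero, map_one, hff, it44, it51, it53, it60, it63, it65, it69, it70, it71]) <;> linear_combination (0 : K) * h2
      · (try simp only [map_add, map_mul, map_pow, map_zero, map_one, hff, it44, it51, it53, it60, it63, it65, it69, it70, it71]) <;> linear_combination (0 : K) * h2
      · (try simp only [map_add, map_mul, map_pow, map_zero, map_one, hff, it44, it51, it53, it60, it63, it65, it69, it70, it71]) <;> linear_combination (0 : K) * h2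
      · (try simp only [map_add, map_mul, map_pow, map_zero, map_one, hff, it44, it51, it53, it60, it63, it65, it69, it70, it71]) <;> linear_combination (0 : K) * h2
      · (try simp only [map_add, map_mul, map_pow, map_zero, map_one, hff, it44, it51, it53, it60, it63, it65, it69, it70, it71]) <;> linear_combination (0 : K) * h2
      · (try simp only [map_add, map_mul, map_pow, map_zero, map_one, hff, it44, it51, it53, it60, it63, it65, it69, it70, it71]) <;> linear_combination (0 : K) * h2
      · (try simp only [map_add, map_mul, map_pow, map_zero, map_one, hff, it44, it51, it53, it60, it63, it65, it69, it70, it71]) <;> linear_combination (0 : K) * h2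
      · (try simp only [map_add, map_mul, map_pow, map_zero, map_one, hff, it44, it51, it53, it60, it63, it65, it69, it70, it71]) <;> linear_combination (0 : K) * h2
      · (try simp only [map_add, map_mul, map_pow, map_zero, map_one, hff, it44, it51, it53, it60, it63, it65, it69, it70, it71]) <;> linear_combination (0 : K) * h2
      · (try simp only [map_add, map_mul, map_pow, map_zero, map_one, hff, it44, it51, it53, it60, it63, it65, it69, it70, it71]) <;> linear_combination (0 : K) * h2
      · (try simp only [map_add, map_mul, map_pow, map_zero, map_one, hff, it44, it51, it53, it60, it63, it65, it69, it70, it71]) <;> linear_combination (0 : K) * h2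
      · (try simp only [map_add, map_mul, map_pow, map_zero, map_one, hff, it44, it51, it53, it60, it63, it65, it69, it70, it71]) <;> linear_combination (0 : K) * h2
      · (try simp only [map_add, map_mul, map_pow, map_zero, map_one, hff, it44, it51, it53, it60, it63, it65, it69, it70, it71]) <;> linear_combination (0 : K) * h2
      · (try simp only [map_add, map_mul, map_pow, map_zero, map_one, hff, it44, it51, it53, it60, it63, it65, it69, it70, it71]) <;> linear_combination (0 : K) * h2
      · (try simp only [map_add, map_mul, map_pow, map_zero, map_one, hff, it44, it51, it53, it60, it63, it65, it69, it70, it71]) <;> linear_combination (0 : K) * h2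
      · (try simp only [map_add, map_mul, map_pow, map_zero, map_one, hff, it44, it51, it53, it60, it63, it65, it69, it70, it71]) <;> linear_combination (0 : K) * h2
      · (try simp only [map_add, map_mul, map_pow, map_zero, map_one, hff, it44, it51, it53, it60, it63, it65, it69, it70, it71]) <;> linear_combination (0 : K) * h2
      · (try simp only [map_add, map_mul, map_pow, map_zero, map_one, hff, it44, it51, it53, it60, it63, it65, it69, it70, it71]) <;> linear_combination (0 : K) * h2
      · (try simp only [map_add, map_mul, map_pow, map_zero, map_one, hff, it44, it51, it53, it60, it63, it65, it69, it70, it71]) <;> linear_combination (0 : K) * h2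
      · (try simp only [map_add, map_mul, map_pow, map_zero, map_one, hff, it44, it51, it53, it60, it63, it65, it69, it70, it71]) <;> linear_combination (0 : K) * h2
      · (try simp only [map_add, map_mul, map_pow, map_zero, map_one, hff, it44, it51, it53, it60, it63, it65, it69, it70, it71]) <;> linear_combination (0 : K) * h2
      · (try simp only [map_add, map_mul, map_pow, map_zero, map_one, hff, it44, it51, it53, it60, it63, it65, it69, it70, it71]) <;> linear_combination (0 : K) * h2
      · (try simp only [map_add, map_mul, map_pow, map_zero, map_one, hff, it44, it51, it53, it60, it63, it65, it69, it70, it71]) <;> linear_combination (0 : K) * h2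
      · (try simp only [map_add, map_mul, map_pow, map_zero, map_one, hff, it44, it51, it53, it60, it63, it65, it69, it70, it71]) <;> linear_combination (0 : K) * h2
      · (try simp only [map_add, map_mul, map_pow, map_zero, map_one, hff, it44, it51, it53, it60, it63, it65, it69, it70, it71]) <;> linear_combination (0 : K) * h2
      · (try simp only [map_add, map_mul, map_pow, map_zero, map_one, hff, it44, it51, it53, it60, it63, it65, it69, it70, it71]) <;> linear_combination (0 : K) * h2

theorem W44_1 {l41 l48 l49 l52 l54 l55 l66 t39 t47 t53 t60 t63 t65 t69 t70 t71 : K} (d : Dt f) (hp39 : t39 ≠ 0) (hm : E f 0 0 0 (t39) 0 (l41) 0 0 0 (t47) (l48) (l49) 0 (l52) (t53) (l54) (l55) (t60) (t63) (t65) (l66) (t69) (t70) (t71) ∈ (sc f).G1) (hs : E f 0 0 0 (t39) 0 (l41) 0 0 0 (t47) (l48) (l49) 0 (l52) (t53) (l54) (l55) (t60) (t63) (t65) (l66) (t69) (t70) (t71) * E f 0 0 0 (t39) 0 (l41) 0 0 0 (t47) (l48) (l49) 0 (l52) (t53) (l54) (l55) (t60) (t63) (t65) (l66) (t69) (t70) (t71) = 1) : Res f (E f 0 0 0 (t39) 0 (l41) 0 0 0 (t47) (l48) (l49) 0 (l52) (t53) (l54)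 (l55) (t60) (t63) (t65) (l66) (t69) (t70) (t71)) := by
  exact C39 d hp39 hm hs

theorem W44 {l45 l48 l49 l52 l54 l55 l66 t44 t51 t53 t60 t63 t65 t69 t70 t71 : K} (d : Dt f) (hp44 : t44 ≠ 0) (hm : E f 0 0 0 0 0 0 (t44) (l45) 0 0 (l48) (l49) (t51) (l52) (t53) (l54) (l55) (t60) (t63) (t65) (l66) (t69) (t70) (t71) ∈ (sc f).G1) (hs : E f 0 0 0 0 0 0 (t44) (l45) 0 0 (l48) (l49) (t51) (l52) (t53) (l54) (l55) (t60) (t63) (t65) (l66) (t69) (t70) (t71) * E f 0 0 0 0 0 0 (t44) (l45) 0 0 (l48) (l49) (t51) (l52) (t53) (l54) (l55) (t60) (t63) (t65) (l66) (t69) (t70) (t71) = 1) : Res f (E f 0 0 0 0 0 0 (t44) (l45) 0 0 (l48) (l49) (t51) (l52) (t53) (l54) (l55) (t60) (t63) (t65) (l66) (t69) (t70) (t71)) := by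
  obtain ⟨it39, it44, it46, it47, it51, it53, it60, it63, it65, it69, it70, it71⟩ := inv_of_mem d hm
  have c : Cj f (E f 0 0 0 0 0 0 (t44) (l45) 0 0 (l48) (l49) (t51) (l52) (t53) (l54) (l55) (t60) (t63) (t65) (l66) (t69) (t70) (t71)) (E f 0 0 0 (t44) 0 (l45) 0 0 0 (t51) ((f l48)) (l52) 0 (l49) (t53) (l55) (l54) (t60) (t63) (t69) ((f l66)) (t65) (t70) (t71)) := cjN f (nR_mem f [2]) (nE_W44 d.hff it44 it51 it53 it60 it63 it65 it69 it70 it71)
  exact Res.of_cj f c (W44_1 d hp44 (c.mem f hm) (c.sq f hs))

theorem C44 {l36 l37 l38 l40 l41 l45 l48 l49 l52 l54 l55 l66 t39 t44 t46 t47 t51 t53 t60 t63 t65 t69 t70 t71 : K} (d : Dt f) (hp44 : t44 ≠ 0) (hm : E f (l36) (l37) (l38) (t39) (l40) (l41) (t44) (l45) (t46) (t47) (l48) (l49) (t51) (l52) (t53) (l54) (l55) (t60) (t63) (t65) (l66) (t69) (t70) (t71) ∈ (sc f).G1) (hs : E f (l36) (l37) (l38) (t39) (l40) (l41) (t44) (l45) (t46) (t47) (l48) (l49) (t51) (l52) (t53) (l54) (l55) (t60) (t63) (t65) (l66) (t69) (t70) (t71) * E f (l36) (l37) (l38) (t39) (l40) (l41) (t44) (l45) (t46) (t47) (l48) (l49) (t51) (l52) (t53)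 (l54) (l55) (t60) (t63) (t65) (l66) (t69) (t70) (t71) = 1) : Res f (E f (l36) (l37) (l38) (t39) (l40) (l41) (t44) (l45) (t46) (t47) (l48) (l49) (t51) (l52) (t53) (l54) (l55) (t60) (t63) (t65) (l66) (t69) (t70) (t71)) := by
  by_cases h46 : t46 = 0
  swap
  · exact C46 d h46 hm hs
  subst h46
  by_cases h39 : t39 = 0
  swap
  · exact C39 d h39 hm hs
  subst h39
  by_cases h37 : l37 = 0
  swap
  · exact C37 d h37 hm hs
  subst h37
  by_cases h36 : l36 = 0
  swap
  · exact C36 d h36 hm hs
  subst h36
  by_cases h38 : l38 = 0
  swap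
  · exact C38 d h38 hm hs
  subst h38
  by_cases h40 : l40 = 0
  swap
  · exact C40 d h40 hm hs
  subst h40
  by_cases h47 : t47 = 0
  swap
  · exact C47 d h47 hm hs
  subst h47
  by_cases h41 : l41 = 0
  swap
  · exact C41 d h41 hm hs
  subst h41
  exact W44 d hp44 hm hs

theorem nE_W48 {l45 l48 l49 l52 l54 l55 l66 t51 t53 t60 t63 t65 t69 t70 t71 : K} (hff : ∀ t, f (f t) = t) (it51 : f t51 = t51) (it53 : f t53 = t53) (it60 : f t60 = t60) (it63 : f t63 = t63) (it65 : f t65 = t65) (it69 : f t69 = t69) (it70 : f t70 = t70) (it71 : f t71 = t71) :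
    nR [0] * E f 0 0 0 0 0 0 0 (l45) 0 0 (l48) (l49) (t51) (l52) (t53) (l54) (l55) (t60) (t63) (t65) (l66) (t69) (t70) (t71) * (nR [0])⁻¹ = E f 0 0 0 0 (l48) (l49) (t51) (l52) 0 0 0 0 0 (l45) (t53) (l54) (l55 + l45*l48) (t63) (t60) (t65) (l66 + l49*(f l45)) (t69 + l45*(f l52) + l52*(f l45)) (t71 + l45*l48*(f l49) + l49*(f l45)*(f l48)) (t70) := by
  have h2 : (2 : K) = 0 := CharTwo.two_eq_zero
  have c45 := fun t : K => nR_at (l := [0]) (s := 45) (m := 52) (by decide +kernel) t
  have c48 := fun t : K => nR_at (l := [0]) (s := 48) (m := 40) (by decide +kernel) t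
  have c49 := fun t : K => nR_at (l := [0]) (s := 49) (m := 41) (by decide +kernel) t
  have c50 := fun t : K => nR_at (l := [0]) (s := 50) (m := 43) (by decide +kernel) t
  have c51 := fun t : K => nR_at (l := [0]) (s := 51) (m := 44) (by decide +kernel) t
  have c52 := fun t : K => nR_at (l := [0]) (s := 52) (m := 45) (by decide +kernel) t
  have c53 := fun t : K => nR_at (l := [0]) (s := 53) (m := 53) (by decide +kernel) t
  have c54 := fun t : K => nR_at (l := [0]) (s := 54) (m := 54) (by decide +kernel) t
  have c55 := fun t : K => nR_at (l := [0]) (s := 55) (m := 55) (by decide +kernel) t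
  have c59 := fun t : K => nR_at (l := [0]) (s := 59) (m := 62) (by decide +kernel) t
  have c60 := fun t : K => nR_at (l := [0]) (s := 60) (m := 63) (by decide +kernel) t
  have c61 := fun t : K => nR_at (l := [0]) (s := 61) (m := 58) (by decide +kernel) t
  have c62 := fun t : K => nR_at (l := [0]) (s := 62) (m := 59) (by decide +kernel) t
  have c63 := fun t : K => nR_at (l := [0]) (s := 63) (m := 60) (by decide +kernel) t
  have c64 := fun t : K => nR_at (l := [0]) (s := 64) (m := 64) (by decide +kernel) t
  have c65 := fun t : K => nR_at (l := [0]) (s := 65) (m := 65) (by decide +kernel) t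
  have c66 := fun t : K => nR_at (l := [0]) (s := 66) (m := 66) (by decide +kernel) t
  have c67 := fun t : K => nR_at (l := [0]) (s := 67) (m := 67) (by decide +kernel) t
  have c68 := fun t : K => nR_at (l := [0]) (s := 68) (m := 68) (by decide +kernel) t
  have c69 := fun t : K => nR_at (l := [0]) (s := 69) (m := 69) (by decide +kernel) t
  have c70 := fun t : K => nR_at (l := [0]) (s := 70) (m := 71) (by decide +kernel) t
  have c71 := fun t : K => nR_at (l := [0]) (s := 71) (m := 70) (by decide +kernel) t
  unfold E
  rw [conj_W]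
  simp only [map_zero, zero_mul, mul_zero, add_zero, zero_add, conj_x0, one_mul, c45, c48, c49, c50, c51, c52, c53, c54, c55, c59, c60, c61, c62, c63, c64, c65, c66, c67, c68, c69, c70, c71]
  rw [← W_zero (K := K)]
  simp only [xW_40, xW_41, xW_43, xW_44, xW_45, xW_52, xW_53, xW_54, xW_55, xW_58, xW_59, xW_60, xW_62, xW_63, xW_64, xW_65, xW_66, xW_67, xW_68, xW_69, xW_70, xW_71, zero_mul, mul_zero, add_zero, zero_add]
  first
    | done
    | apply W_congr
      · (try simp only [map_add, map_mul, map_pow, map_zero, map_one, hff, it51, it53, it60, it63, it65, it69, it70, it71]) <;> linear_combination (0 : K) * h2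
      · (try simp only [map_add, map_mul, map_pow, map_zero, map_one, hff, it51, it53, it60, it63, it65, it69, it70, it71]) <;> linear_combination (0 : K) * h2
      · (try simp only [map_add, map_mul, map_pow, map_zero, map_one, hff, it51, it53, it60, it63, it65, it69, it70, it71]) <;> linear_combination (0 : K) * h2
      · (try simp only [map_add, map_mul, map_pow, map_zero, map_one, hff, it51, it53, it60, it63, it65, it69, it70, it71]) <;> linear_combination (0 : K) * h2
      · (try simp only [map_add, map_mul, map_pow, map_zero, map_one, hff, it51, it53, it60, it63, it65, it69, it70, it71]) <;> linear_combination (0 : K) * h2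
      · (try simp only [map_add, map_mul, map_pow, map_zero, map_one, hff, it51, it53, it60, it63, it65, it69, it70, it71]) <;> linear_combination (0 : K) * h2
      · (try simp only [map_add, map_mul, map_pow, map_zero, map_one, hff, it51, it53, it60, it63, it65, it69, it70, it71]) <;> linear_combination (0 : K) * h2
      · (try simp only [map_add, map_mul, map_pow, map_zero, map_one, hff, it51, it53, it60, it63, it65, it69, it70, it71]) <;> linear_combination (0 : K) * h2
      · (try simp only [map_add, map_mul, map_pow, map_zero, map_one, hff, it51, it53, it60, it63, it65, it69, it70, it71]) <;> linear_combination (0 : K) * h2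
      · (try simp only [map_add, map_mul, map_pow, map_zero, map_one, hff, it51, it53, it60, it63, it65, it69, it70, it71]) <;> linear_combination (0 : K) * h2
      · (try simp only [map_add, map_mul, map_pow, map_zero, map_one, hff, it51, it53, it60, it63, it65, it69, it70, it71]) <;> linear_combination (0 : K) * h2
      · (try simp only [map_add, map_mul, map_pow, map_zero, map_one, hff, it51, it53, it60, it63, it65, it69, it70, it71]) <;> linear_combination (0 : K) * h2
      · (try simp only [map_add, map_mul, map_pow, map_zero, map_one, hff, it51, it53, it60, it63, it65, it69, it70, it71]) <;> linear_combination (0 : K) * h2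
      · (try simp only [map_add, map_mul, map_pow, map_zero, map_one, hff, it51, it53, it60, it63, it65, it69, it70, it71]) <;> linear_combination (0 : K) * h2
      · (try simp only [map_add, map_mul, map_pow, map_zero, map_one, hff, it51, it53, it60, it63, it65, it69, it70, it71]) <;> linear_combination (0 : K) * h2
      · (try simp only [map_add, map_mul, map_pow, map_zero, map_one, hff, it51, it53, it60, it63, it65, it69, it70, it71]) <;> linear_combination (0 : K) * h2
      · (try simp only [map_add, map_mul, map_pow, map_zero, map_one, hff, it51, it53, it60, it63, it65, it69, it70, it71]) <;> linear_combination (0 : K) * h2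
      · (try simp only [map_add, map_mul, map_pow, map_zero, map_one, hff, it51, it53, it60, it63, it65, it69, it70, it71]) <;> linear_combination (0 : K) * h2
      · (try simp only [map_add, map_mul, map_pow, map_zero, map_one, hff, it51, it53, it60, it63, it65, it69, it70, it71]) <;> linear_combination (0 : K) * h2
      · (try simp only [map_add, map_mul, map_pow, map_zero, map_one, hff, it51, it53, it60, it63, it65, it69, it70, it71]) <;> linear_combination (0 : K) * h2
      · (try simp only [map_add, map_mul, map_pow, map_zero, map_one, hff, it51, it53, it60, it63, it65, it69, it70, it71]) <;> linear_combination (0 : K) * h2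
      · (try simp only [map_add, map_mul, map_pow, map_zero, map_one, hff, it51, it53, it60, it63, it65, it69, it70, it71]) <;> linear_combination (0 : K) * h2
      · (try simp only [map_add, map_mul, map_pow, map_zero, map_one, hff, it51, it53, it60, it63, it65, it69, it70, it71]) <;> linear_combination (0 : K) * h2
      · (try simp only [map_add, map_mul, map_pow, map_zero, map_one, hff, it51, it53, it60, it63, it65, it69, it70, it71]) <;> linear_combination (0 : K) * h2
      · (try simp only [map_add, map_mul, map_pow, map_zero, map_one, hff, it51, it53, it60, it63, it65, it69, it70, it71]) <;> linear_combination (0 : K) * h2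
      · (try simp only [map_add, map_mul, map_pow, map_zero, map_one, hff, it51, it53, it60, it63, it65, it69, it70, it71]) <;> linear_combination (0 : K) * h2
      · (try simp only [map_add, map_mul, map_pow, map_zero, map_one, hff, it51, it53, it60, it63, it65, it69, it70, it71]) <;> linear_combination (0 : K) * h2
      · (try simp only [map_add, map_mul, map_pow, map_zero, map_one, hff, it51, it53, it60, it63, it65, it69, it70, it71]) <;> linear_combination (0 : K) * h2
      · (try simp only [map_add, map_mul, map_pow, map_zero, map_one, hff, it51, it53, it60, it63, it65, it69, it70, it71]) <;> linear_combination (0 : K) * h2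
      · (try simp only [map_add, map_mul, map_pow, map_zero, map_one, hff, it51, it53, it60, it63, it65, it69, it70, it71]) <;> linear_combination (0 : K) * h2
      · (try simp only [map_add, map_mul, map_pow, map_zero, map_one, hff, it51, it53, it60, it63, it65, it69, it70, it71]) <;> linear_combination (0 : K) * h2
      · (try simp only [map_add, map_mul, map_pow, map_zero, map_one, hff, it51, it53, it60, it63, it65, it69, it70, it71]) <;> linear_combination (0 : K) * h2
      · (try simp only [map_add, map_mul, map_pow, map_zero, map_one, hff, it51, it53, it60, it63, it65, it69, it70, it71]) <;> linear_combination (-l45*(f l49)) * h2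
      · (try simp only [map_add, map_mul, map_pow, map_zero, map_one, hff, it51, it53, it60, it63, it65, it69, it70, it71]) <;> linear_combination (-l45*(f l52)) * h2
      · (try simp only [map_add, map_mul, map_pow, map_zero, map_one, hff, it51, it53, it60, it63, it65, it69, it70, it71]) <;> linear_combination (-l45*l48*(f l49)) * h2
      · (try simp only [map_add, map_mul, map_pow, map_zero, map_one, hff, it51, it53, it60, it63, it65, it69, it70, it71]) <;> linear_combination (0 : K) * h2

theorem W48_1 {l40 l41 l45 l52 l54 l55 l66 t44 t53 t60 t63 t65 t69 t70 t71 : K} (d : Dt f) (hp40 : l40 ≠ 0) (hm : E f 0 0 0 0 (l40) (l41) (t44) (l45) 0 0 0 0 0 (l52) (t53) (l54) (l55) (t60) (t63) (t65) (l66) (t69) (t70) (t71) ∈ (sc f).G1) (hs : E f 0 0 0 0 (l40) (l41) (t44) (l45) 0 0 0 0 0 (l52) (t53) (l54) (l55) (t60) (t63) (t65) (l66) (t69) (t70) (t71) * E f 0 0 0 0 (l40) (l41) (t44) (l45) 0 0 0 0 0 (l52) (t53) (l54) (l55) (t60) (t63) (t65) (l66) (t69) (t70) (t71) = 1) : Res f (E f 0 0 0 0 (l40) (l41) (t44) (l45) 0 0 0 0 0 (l52) (t53) (l54) (l55) (t60) (t63)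 (t65) (l66) (t69) (t70) (t71)) := by
  exact C40 d hp40 hm hs

theorem W48 {l45 l48 l49 l52 l54 l55 l66 t51 t53 t60 t63 t65 t69 t70 t71 : K} (d : Dt f) (hp48 : l48 ≠ 0) (hm : E f 0 0 0 0 0 0 0 (l45) 0 0 (l48) (l49) (t51) (l52) (t53) (l54) (l55) (t60) (t63) (t65) (l66) (t69) (t70) (t71) ∈ (sc f).G1) (hs : E f 0 0 0 0 0 0 0 (l45) 0 0 (l48) (l49) (t51) (l52) (t53) (l54) (l55) (t60) (t63) (t65) (l66) (t69) (t70) (t71) * E f 0 0 0 0 0 0 0 (l45) 0 0 (l48) (l49) (t51) (l52) (t53) (l54) (l55) (t60) (t63) (t65) (l66) (t69) (t70) (t71) = 1) : Res f (E f 0 0 0 0 0 0 0 (l45) 0 0 (l48) (l49) (t51) (l52) (t53) (l54) (l55) (t60) (t63) (t65) (l66) (t69) (t70) (t71)) := by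
  obtain ⟨it39, it44, it46, it47, it51, it53, it60, it63, it65, it69, it70, it71⟩ := inv_of_mem d hm
  have c : Cj f (E f 0 0 0 0 0 0 0 (l45) 0 0 (l48) (l49) (t51) (l52) (t53) (l54) (l55) (t60) (t63) (t65) (l66) (t69) (t70) (t71)) (E f 0 0 0 0 (l48) (l49) (t51) (l52) 0 0 0 0 0 (l45) (t53) (l54) (l55 + l45*l48) (t63) (t60) (t65) (l66 + l49*(f l45)) (t69 + l45*(f l52) + l52*(f l45)) (t71 + l45*l48*(f l49) + l49*(f l45)*(f l48)) (t70)) := cjN f (nR_mem f [0]) (nE_W48 d.hff it51 it53 it60 it63 it65 it69 it70 it71)
  exact Res.of_cj f c (W48_1 d hp48 (c.mem f hm) (c.sq f hs))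

theorem C48 {l36 l37 l38 l40 l41 l45 l48 l49 l52 l54 l55 l66 t39 t44 t46 t47 t51 t53 t60 t63 t65 t69 t70 t71 : K} (d : Dt f) (hp48 : l48 ≠ 0) (hm : E f (l36) (l37) (l38) (t39) (l40) (l41) (t44) (l45) (t46) (t47) (l48) (l49) (t51) (l52) (t53) (l54) (l55) (t60) (t63) (t65) (l66) (t69) (t70) (t71) ∈ (sc f).G1) (hs : E f (l36) (l37) (l38) (t39) (l40) (l41) (t44) (l45) (t46) (t47) (l48) (l49) (t51) (l52) (t53) (l54) (l55) (t60) (t63) (t65) (l66) (t69) (t70) (t71) * E f (l36) (l37) (l38) (t39) (l40) (l41) (t44) (l45) (t46) (t47) (l48) (l49) (t51) (l52) (t53) (l54) (l55) (t60) (t63) (t65) (l66) (t69) (t70) (t71) = 1) : Res f (E f (l36) (l37) (l38) (t39) (l40) (l41) (t44) (l45) (t46) (t47) (l48) (l49) (t51) (l52) (t53) (l54) (l55) (t60) (t63) (t65) (l66) (t69) (t70) (t71)) := by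
  by_cases h46 : t46 = 0
  swap
  · exact C46 d h46 hm hs
  subst h46
  by_cases h39 : t39 = 0
  swap
  · exact C39 d h39 hm hs
  subst h39
  by_cases h37 : l37 = 0
  swap
  · exact C37 d h37 hm hs
  subst h37
  by_cases h36 : l36 = 0
  swap
  · exact C36 d h36 hm hs
  subst h36
  by_cases h38 : l38 = 0
  swap
  · exact C38 d h38 hm hs
  subst h38
  by_cases h40 : l40 = 0
  swap
  · exact C40 d h40 hm hs
  subst h40
  by_cases h47 : t47 = 0
  swap
  · exact C47 d h47 hm hs
  subst h47
  by_cases h41 : l41 = 0
  swap
  · exact C41 d h41 hm hs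
  subst h41
  by_cases h44 : t44 = 0
  swap
  · exact C44 d h44 hm hs
  subst h44
  exact W48 d hp48 hm hs

theorem nE_W45 {l45 l49 l52 l54 l55 l66 t51 t53 t60 t63 t65 t69 t70 t71 : K} (hff : ∀ t, f (f t) = t) (it51 : f t51 = t51) (it53 : f t53 = t53) (it60 : f t60 = t60) (it63 : f t63 = t63) (it65 : f t65 = t65) (it69 : f t69 = t69) (it70 : f t70 = t70) (it71 : f t71 = t71) :
    nR [2] * E f 0 0 0 0 0 0 0 (l45) 0 0 0 (l49) (t51) (l52) (t53) (l54) (l55) (t60) (t63) (t65) (l66) (t69) (t70) (t71) * (nR [2])⁻¹ = E f 0 0 0 0 0 (l45) 0 0 0 (t51) 0 (l52) 0 (l49) (t53) (l55) (l54) (t60) (t63) (t69) ((f l66)) (t65) (t70) (t71) := by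
  have h2 : (2 : K) = 0 := CharTwo.two_eq_zero
  have c45 := fun t : K => nR_at (l := [2]) (s := 45) (m := 41) (by decide +kernel) t
  have c49 := fun t : K => nR_at (l := [2]) (s := 49) (m := 52) (by decide +kernel) t
  have c51 := fun t : K => nR_at (l := [2]) (s := 51) (m := 47) (by decide +kernel) t
  have c52 := fun t : K => nR_at (l := [2]) (s := 52) (m := 49) (by decide +kernel) t
  have c53 := fun t : K => nR_at (l := [2]) (s := 53) (m := 53) (by decide +kernel) t
  have c54 := fun t : K => nR_at (l := [2]) (s := 54) (m := 55) (by decide +kernel) t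
  have c55 := fun t : K => nR_at (l := [2]) (s := 55) (m := 54) (by decide +kernel) t
  have c59 := fun t : K => nR_at (l := [2]) (s := 59) (m := 58) (by decide +kernel) t
  have c60 := fun t : K => nR_at (l := [2]) (s := 60) (m := 60) (by decide +kernel) t
  have c61 := fun t : K => nR_at (l := [2]) (s := 61) (m := 62) (by decide +kernel) t
  have c62 := fun t : K => nR_at (l := [2]) (s := 62) (m := 61) (by decide +kernel) t
  have c63 := fun t : K => nR_at (l := [2]) (s := 63) (m := 63) (by decide +kernel) t
  have c64 := fun t : K => nR_at (l := [2]) (s := 64) (m := 67) (by decide +kernel) t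
  have c65 := fun t : K => nR_at (l := [2]) (s := 65) (m := 69) (by decide +kernel) t
  have c66 := fun t : K => nR_at (l := [2]) (s := 66) (m := 68) (by decide +kernel) t
  have c67 := fun t : K => nR_at (l := [2]) (s := 67) (m := 64) (by decide +kernel) t
  have c68 := fun t : K => nR_at (l := [2]) (s := 68) (m := 66) (by decide +kernel) t
  have c69 := fun t : K => nR_at (l := [2]) (s := 69) (m := 65) (by decide +kernel) t
  have c70 := fun t : K => nR_at (l := [2]) (s := 70) (m := 70) (by decide +kernel) t
  have c71 := fun t : K => nR_at (l := [2]) (s := 71) (m := 71) (by decide +kernel) t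
  unfold E
  rw [conj_W]
  simp only [map_zero, zero_mul, mul_zero, add_zero, zero_add, conj_x0, one_mul, c45, c49, c51, c52, c53, c54, c55, c59, c60, c61, c62, c63, c64, c65, c66, c67, c68, c69, c70, c71]
  rw [← W_zero (K := K)]
  simp only [xW_41, xW_47, xW_49, xW_52, xW_53, xW_54, xW_55, xW_58, xW_60, xW_61, xW_62, xW_63, xW_64, xW_65, xW_66, xW_67, xW_68, xW_69, xW_70, xW_71, zero_mul, mul_zero, add_zero, zero_add]
  first
    | done
    | apply W_congr
      · (try simp only [map_add, map_mul, map_pow, map_zero, map_one, hff, it51, it53, it60, it63, it65, it69, it70, it71]) <;> linear_combination (0 : K) * h2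
      · (try simp only [map_add, map_mul, map_pow, map_zero, map_one, hff, it51, it53, it60, it63, it65, it69, it70, it71]) <;> linear_combination (0 : K) * h2
      · (try simp only [map_add, map_mul, map_pow, map_zero, map_one, hff, it51, it53, it60, it63, it65, it69, it70, it71]) <;> linear_combination (0 : K) * h2
      · (try simp only [map_add, map_mul, map_pow, map_zero, map_one, hff, it51, it53, it60, it63, it65, it69, it70, it71]) <;> linear_combination (0 : K) * h2
      · (try simp only [map_add, map_mul, map_pow, map_zero, map_one, hff, it51, it53, it60, it63, it65, it69, it70, it71]) <;> linear_combination (0 : K) * h2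
      · (try simp only [map_add, map_mul, map_pow, map_zero, map_one, hff, it51, it53, it60, it63, it65, it69, it70, it71]) <;> linear_combination (0 : K) * h2
      · (try simp only [map_add, map_mul, map_pow, map_zero, map_one, hff, it51, it53, it60, it63, it65, it69, it70, it71]) <;> linear_combination (0 : K) * h2
      · (try simp only [map_add, map_mul, map_pow, map_zero, map_one, hff, it51, it53, it60, it63, it65, it69, it70, it71]) <;> linear_combination (0 : K) * h2
      · (try simp only [map_add, map_mul, map_pow, map_zero, map_one, hff, it51, it53, it60, it63, it65, it69, it70, it71]) <;> linear_combination (0 : K) * h2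
      · (try simp only [map_add, map_mul, map_pow, map_zero, map_one, hff, it51, it53, it60, it63, it65, it69, it70, it71]) <;> linear_combination (0 : K) * h2
      · (try simp only [map_add, map_mul, map_pow, map_zero, map_one, hff, it51, it53, it60, it63, it65, it69, it70, it71]) <;> linear_combination (0 : K) * h2
      · (try simp only [map_add, map_mul, map_pow, map_zero, map_one, hff, it51, it53, it60, it63, it65, it69, it70, it71]) <;> linear_combination (0 : K) * h2
      · (try simp only [map_add, map_mul, map_pow, map_zero, map_one, hff, it51, it53, it60, it63, it65, it69, it70, it71]) <;> linear_combination (0 : K) * h2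
      · (try simp only [map_add, map_mul, map_pow, map_zero, map_one, hff, it51, it53, it60, it63, it65, it69, it70, it71]) <;> linear_combination (0 : K) * h2
      · (try simp only [map_add, map_mul, map_pow, map_zero, map_one, hff, it51, it53, it60, it63, it65, it69, it70, it71]) <;> linear_combination (0 : K) * h2
      · (try simp only [map_add, map_mul, map_pow, map_zero, map_one, hff, it51, it53, it60, it63, it65, it69, it70, it71]) <;> linear_combination (0 : K) * h2
      · (try simp only [map_add, map_mul, map_pow, map_zero, map_one, hff, it51, it53, it60, it63, it65, it69, it70, it71]) <;> linear_combination (0 : K) * h2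
      · (try simp only [map_add, map_mul, map_pow, map_zero, map_one, hff, it51, it53, it60, it63, it65, it69, it70, it71]) <;> linear_combination (0 : K) * h2
      · (try simp only [map_add, map_mul, map_pow, map_zero, map_one, hff, it51, it53, it60, it63, it65, it69, it70, it71]) <;> linear_combination (0 : K) * h2
      · (try simp only [map_add, map_mul, map_pow, map_zero, map_one, hff, it51, it53, it60, it63, it65, it69, it70, it71]) <;> linear_combination (0 : K) * h2
      · (try simp only [map_add, map_mul, map_pow, map_zero, map_one, hff, it51, it53, it60, it63, it65, it69, it70, it71]) <;> linear_combination (0 : K) * h2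
      · (try simp only [map_add, map_mul, map_pow, map_zero, map_one, hff, it51, it53, it60, it63, it65, it69, it70, it71]) <;> linear_combination (0 : K) * h2
      · (try simp only [map_add, map_mul, map_pow, map_zero, map_one, hff, it51, it53, it60, it63, it65, it69, it70, it71]) <;> linear_combination (0 : K) * h2
      · (try simp only [map_add, map_mul, map_pow, map_zero, map_one, hff, it51, it53, it60, it63, it65, it69, it70, it71]) <;> linear_combination (0 : K) * h2
      · (try simp only [map_add, map_mul, map_pow, map_zero, map_one, hff, it51, it53, it60, it63, it65, it69, it70, it71]) <;> linear_combination (0 : K) * h2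
      · (try simp only [map_add, map_mul, map_pow, map_zero, map_one, hff, it51, it53, it60, it63, it65, it69, it70, it71]) <;> linear_combination (0 : K) * h2
      · (try simp only [map_add, map_mul, map_pow, map_zero, map_one, hff, it51, it53, it60, it63, it65, it69, it70, it71]) <;> linear_combination (0 : K) * h2
      · (try simp only [map_add, map_mul, map_pow, map_zero, map_one, hff, it51, it53, it60, it63, it65, it69, it70, it71]) <;> linear_combination (0 : K) * h2
      · (try simp only [map_add, map_mul, map_pow, map_zero, map_one, hff, it51, it53, it60, it63, it65, it69, it70, it71]) <;> linear_combination (0 : K) * h2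
      · (try simp only [map_add, map_mul, map_pow, map_zero, map_one, hff, it51, it53, it60, it63, it65, it69, it70, it71]) <;> linear_combination (0 : K) * h2
      · (try simp only [map_add, map_mul, map_pow, map_zero, map_one, hff, it51, it53, it60, it63, it65, it69, it70, it71]) <;> linear_combination (0 : K) * h2
      · (try simp only [map_add, map_mul, map_pow, map_zero, map_one, hff, it51, it53, it60, it63, it65, it69, it70, it71]) <;> linear_combination (0 : K) * h2
      · (try simp only [map_add, map_mul, map_pow, map_zero, map_one, hff, it51, it53, it60, it63, it65, it69, it70, it71]) <;> linear_combination (0 : K) * h2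
      · (try simp only [map_add, map_mul, map_pow, map_zero, map_one, hff, it51, it53, it60, it63, it65, it69, it70, it71]) <;> linear_combination (0 : K) * h2
      · (try simp only [map_add, map_mul, map_pow, map_zero, map_one, hff, it51, it53, it60, it63, it65, it69, it70, it71]) <;> linear_combination (0 : K) * h2
      · (try simp only [map_add, map_mul, map_pow, map_zero, map_one, hff, it51, it53, it60, it63, it65, it69, it70, it71]) <;> linear_combination (0 : K) * h2

theorem W45_1 {l41 l49 l52 l54 l55 l66 t47 t53 t60 t63 t65 t69 t70 t71 : K} (d : Dt f) (hp41 : l41 ≠ 0) (hm : E f 0 0 0 0 0 (l41) 0 0 0 (t47) 0 (l49) 0 (l52) (t53) (l54) (l55) (t60) (t63) (t65) (l66) (t69) (t70) (t71) ∈ (sc f).G1) (hs : E f 0 0 0 0 0 (l41) 0 0 0 (t47) 0 (l49) 0 (l52) (t53) (l54) (l55) (t60) (t63) (t65) (l66) (t69) (t70) (t71) * E f 0 0 0 0 0 (l41) 0 0 0 (t47) 0 (l49) 0 (l52) (t53) (l54) (l55) (t60) (t63) (t65) (l66) (t69) (t70) (t71) = 1) : Res f (E f 0 0 0 0 0 (l41) 0 0 0 (t47) 0 (l49) 0 (l52) (t53) (l54) (l55) (t60) (t63) (t65) (l66) (t69) (t70) (t71)) := by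
  exact C41 d hp41 hm hs

theorem W45 {l45 l49 l52 l54 l55 l66 t51 t53 t60 t63 t65 t69 t70 t71 : K} (d : Dt f) (hp45 : l45 ≠ 0) (hm : E f 0 0 0 0 0 0 0 (l45) 0 0 0 (l49) (t51) (l52) (t53) (l54) (l55) (t60) (t63) (t65) (l66) (t69) (t70) (t71) ∈ (sc f).G1) (hs : E f 0 0 0 0 0 0 0 (l45) 0 0 0 (l49) (t51) (l52) (t53) (l54) (l55) (t60) (t63) (t65) (l66) (t69) (t70) (t71) * E f 0 0 0 0 0 0 0 (l45) 0 0 0 (l49) (t51) (l52) (t53) (l54) (l55) (t60) (t63) (t65) (l66) (t69) (t70) (t71) = 1) : Res f (E f 0 0 0 0 0 0 0 (l45) 0 0 0 (l49) (t51) (l52) (t53) (l54) (l55) (t60) (t63) (t65) (l66) (t69) (t70) (t71)) := by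
  obtain ⟨it39, it44, it46, it47, it51, it53, it60, it63, it65, it69, it70, it71⟩ := inv_of_mem d hm
  have c : Cj f (E f 0 0 0 0 0 0 0 (l45) 0 0 0 (l49) (t51) (l52) (t53) (l54) (l55) (t60) (t63) (t65) (l66) (t69) (t70) (t71)) (E f 0 0 0 0 0 (l45) 0 0 0 (t51) 0 (l52) 0 (l49) (t53) (l55) (l54) (t60) (t63) (t69) ((f l66)) (t65) (t70) (t71)) := cjN f (nR_mem f [2]) (nE_W45 d.hff it51 it53 it60 it63 it65 it69 it70 it71)
  exact Res.of_cj f c (W45_1 d hp45 (c.mem f hm) (c.sq f hs))

theorem C45 {l36 l37 l38 l40 l41 l45 l48 l49 l52 l54 l55 l66 t39 t44 t46 t47 t51 t53 t60 t63 t65 t69 t70 t71 : K} (d : Dt f) (hp45 : l45 ≠ 0) (hm : E f (l36) (l37) (l38) (t39) (l40) (l41) (t44) (l45) (t46) (t47) (l48) (l49) (t51) (l52) (t53) (l54) (l55) (t60) (t63) (t65) (l66) (t69) (t70) (t71) ∈ (sc f).G1) (hs : E f (l36) (l37) (l38) (t39) (l40) (l41) (t44) (l45) (t46) (t47) (l48) (l49) (t51) (l52) (t53) (l54) (l55) (t60) (t63) (t65) (l66) (t69) (t70) (t71) * E f (l36) (l37) (l38) (t39) (l40) (l41) (t44) (l45) (t46) (t47) (l48) (l49) (t51) (l52) (t53) (l54) (l55) (t60) (t63)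 (t65) (l66) (t69) (t70) (t71) = 1) : Res f (E f (l36) (l37) (l38) (t39) (l40) (l41) (t44) (l45) (t46) (t47) (l48) (l49) (t51) (l52) (t53) (l54) (l55) (t60) (t63) (t65) (l66) (t69) (t70) (t71)) := by
  by_cases h46 : t46 = 0
  swap
  · exact C46 d h46 hm hs
  subst h46
  by_cases h39 : t39 = 0
  swap
  · exact C39 d h39 hm hs
  subst h39
  by_cases h37 : l37 = 0
  swap
  · exact C37 d h37 hm hs
  subst h37
  by_cases h36 : l36 = 0
  swap
  · exact C36 d h36 hm hs
  subst h36
  by_cases h38 : l38 = 0
  swap
  · exact C38 d h38 hm hs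
  subst h38
  by_cases h40 : l40 = 0
  swap
  · exact C40 d h40 hm hs
  subst h40
  by_cases h47 : t47 = 0
  swap
  · exact C47 d h47 hm hs
  subst h47
  by_cases h41 : l41 = 0
  swap
  · exact C41 d h41 hm hs
  subst h41
  by_cases h44 : t44 = 0
  swap
  · exact C44 d h44 hm hs
  subst h44
  by_cases h48 : l48 = 0
  swap
  · exact C48 d h48 hm hs
  subst h48
  exact W45 d hp45 hm hs

theorem nE_W49 {l49 l52 l54 l55 l66 t51 t53 t60 t63 t65 t69 t70 t71 : K} (hff : ∀ t, f (f t) = t) (it51 : f t51 = t51) (it53 : f t53 = t53) (it60 : f t60 = t60) (it63 : f t63 = t63) (it65 : f t65 = t65) (it69 : f t69 = t69) (it70 : f t70 = t70) (it71 : f t71 = t71) :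
    nR [0] * E f 0 0 0 0 0 0 0 0 0 0 0 (l49) (t51) (l52) (t53) (l54) (l55) (t60) (t63) (t65) (l66) (t69) (t70) (t71) * (nR [0])⁻¹ = E f 0 0 0 0 0 (l49) (t51) (l52) 0 0 0 0 0 0 (t53) (l54) (l55) (t63) (t60) (t65) (l66) (t69) (t71) (t70) := by
  have h2 : (2 : K) = 0 := CharTwo.two_eq_zero
  have c49 := fun t : K => nR_at (l := [0]) (s := 49) (m := 41) (by decide +kernel) t
  have c51 := fun t : K => nR_at (l := [0]) (s := 51) (m := 44) (by decide +kernel) t
  have c52 := fun t : K => nR_at (l := [0]) (s := 52) (m := 45) (by decide +kernel) t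
  have c53 := fun t : K => nR_at (l := [0]) (s := 53) (m := 53) (by decide +kernel) t
  have c54 := fun t : K => nR_at (l := [0]) (s := 54) (m := 54) (by decide +kernel) t
  have c55 := fun t : K => nR_at (l := [0]) (s := 55) (m := 55) (by decide +kernel) t
  have c60 := fun t : K => nR_at (l := [0]) (s := 60) (m := 63) (by decide +kernel) t
  have c61 := fun t : K => nR_at (l := [0]) (s := 61) (m := 58) (by decide +kernel) t
  have c62 := fun t : K => nR_at (l := [0]) (s := 62) (m := 59) (by decide +kernel) t
  have c63 := fun t : K => nR_at (l := [0]) (s := 63) (m := 60) (by decide +kernel) t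
  have c64 := fun t : K => nR_at (l := [0]) (s := 64) (m := 64) (by decide +kernel) t
  have c65 := fun t : K => nR_at (l := [0]) (s := 65) (m := 65) (by decide +kernel) t
  have c66 := fun t : K => nR_at (l := [0]) (s := 66) (m := 66) (by decide +kernel) t
  have c67 := fun t : K => nR_at (l := [0]) (s := 67) (m := 67) (by decide +kernel) t
  have c68 := fun t : K => nR_at (l := [0]) (s := 68) (m := 68) (by decide +kernel) t
  have c69 := fun t : K => nR_at (l := [0]) (s := 69) (m := 69) (by decide +kernel) t
  have c70 := fun t : K => nR_at (l := [0]) (s := 70) (m := 71) (by decide +kernel) t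
  have c71 := fun t : K => nR_at (l := [0]) (s := 71) (m := 70) (by decide +kernel) t
  unfold E
  rw [conj_W]
  simp only [map_zero, zero_mul, mul_zero, add_zero, zero_add, conj_x0, one_mul, c49, c51, c52, c53, c54, c55, c60, c61, c62, c63, c64, c65, c66, c67, c68, c69, c70, c71]
  rw [← W_zero (K := K)]
  simp only [xW_41, xW_44, xW_45, xW_53, xW_54, xW_55, xW_58, xW_59, xW_60, xW_63, xW_64, xW_65, xW_66, xW_67, xW_68, xW_69, xW_70, xW_71, zero_mul, mul_zero, add_zero, zero_add]
  first
    | done
    | apply W_congr
      · (try simp only [map_add, map_mul, map_pow, map_zero, map_one, hff, it51, it53, it60, it63, it65, it69, it70, it71]) <;> linear_combination (0 : K) * h2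
      · (try simp only [map_add, map_mul, map_pow, map_zero, map_one, hff, it51, it53, it60, it63, it65, it69, it70, it71]) <;> linear_combination (0 : K) * h2
      · (try simp only [map_add, map_mul, map_pow, map_zero, map_one, hff, it51, it53, it60, it63, it65, it69, it70, it71]) <;> linear_combination (0 : K) * h2
      · (try simp only [map_add, map_mul, map_pow, map_zero, map_one, hff, it51, it53, it60, it63, it65, it69, it70, it71]) <;> linear_combination (0 : K) * h2
      · (try simp only [map_add, map_mul, map_pow, map_zero, map_one, hff, it51, it53, it60, it63, it65, it69, it70, it71]) <;> linear_combination (0 : K) * h2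
      · (try simp only [map_add, map_mul, map_pow, map_zero, map_one, hff, it51, it53, it60, it63, it65, it69, it70, it71]) <;> linear_combination (0 : K) * h2
      · (try simp only [map_add, map_mul, map_pow, map_zero, map_one, hff, it51, it53, it60, it63, it65, it69, it70, it71]) <;> linear_combination (0 : K) * h2
      · (try simp only [map_add, map_mul, map_pow, map_zero, map_one, hff, it51, it53, it60, it63, it65, it69, it70, it71]) <;> linear_combination (0 : K) * h2
      · (try simp only [map_add, map_mul, map_pow, map_zero, map_one, hff, it51, it53, it60, it63, it65, it69, it70, it71]) <;> linear_combination (0 : K) * h2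
      · (try simp only [map_add, map_mul, map_pow, map_zero, map_one, hff, it51, it53, it60, it63, it65, it69, it70, it71]) <;> linear_combination (0 : K) * h2
      · (try simp only [map_add, map_mul, map_pow, map_zero, map_one, hff, it51, it53, it60, it63, it65, it69, it70, it71]) <;> linear_combination (0 : K) * h2
      · (try simp only [map_add, map_mul, map_pow, map_zero, map_one, hff, it51, it53, it60, it63, it65, it69, it70, it71]) <;> linear_combination (0 : K) * h2
      · (try simp only [map_add, map_mul, map_pow, map_zero, map_one, hff, it51, it53, it60, it63, it65, it69, it70, it71]) <;> linear_combination (0 : K) * h2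
      · (try simp only [map_add, map_mul, map_pow, map_zero, map_one, hff, it51, it53, it60, it63, it65, it69, it70, it71]) <;> linear_combination (0 : K) * h2
      · (try simp only [map_add, map_mul, map_pow, map_zero, map_one, hff, it51, it53, it60, it63, it65, it69, it70, it71]) <;> linear_combination (0 : K) * h2
      · (try simp only [map_add, map_mul, map_pow, map_zero, map_one, hff, it51, it53, it60, it63, it65, it69, it70, it71]) <;> linear_combination (0 : K) * h2
      · (try simp only [map_add, map_mul, map_pow, map_zero, map_one, hff, it51, it53, it60, it63, it65, it69, it70, it71]) <;> linear_combination (0 : K) * h2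
      · (try simp only [map_add, map_mul, map_pow, map_zero, map_one, hff, it51, it53, it60, it63, it65, it69, it70, it71]) <;> linear_combination (0 : K) * h2
      · (try simp only [map_add, map_mul, map_pow, map_zero, map_one, hff, it51, it53, it60, it63, it65, it69, it70, it71]) <;> linear_combination (0 : K) * h2
      · (try simp only [map_add, map_mul, map_pow, map_zero, map_one, hff, it51, it53, it60, it63, it65, it69, it70, it71]) <;> linear_combination (0 : K) * h2
      · (try simp only [map_add, map_mul, map_pow, map_zero, map_one, hff, it51, it53, it60, it63, it65, it69, it70, it71]) <;> linear_combination (0 : K) * h2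
      · (try simp only [map_add, map_mul, map_pow, map_zero, map_one, hff, it51, it53, it60, it63, it65, it69, it70, it71]) <;> linear_combination (0 : K) * h2
      · (try simp only [map_add, map_mul, map_pow, map_zero, map_one, hff, it51, it53, it60, it63, it65, it69, it70, it71]) <;> linear_combination (0 : K) * h2
      · (try simp only [map_add, map_mul, map_pow, map_zero, map_one, hff, it51, it53, it60, it63, it65, it69, it70, it71]) <;> linear_combination (0 : K) * h2
      · (try simp only [map_add, map_mul, map_pow, map_zero, map_one, hff, it51, it53, it60, it63, it65, it69, it70, it71]) <;> linear_combination (0 : K) * h2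
      · (try simp only [map_add, map_mul, map_pow, map_zero, map_one, hff, it51, it53, it60, it63, it65, it69, it70, it71]) <;> linear_combination (0 : K) * h2
      · (try simp only [map_add, map_mul, map_pow, map_zero, map_one, hff, it51, it53, it60, it63, it65, it69, it70, it71]) <;> linear_combination (0 : K) * h2
      · (try simp only [map_add, map_mul, map_pow, map_zero, map_one, hff, it51, it53, it60, it63, it65, it69, it70, it71]) <;> linear_combination (0 : K) * h2
      · (try simp only [map_add, map_mul, map_pow, map_zero, map_one, hff, it51, it53, it60, it63, it65, it69, it70, it71]) <;> linear_combination (0 : K) * h2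
      · (try simp only [map_add, map_mul, map_pow, map_zero, map_one, hff, it51, it53, it60, it63, it65, it69, it70, it71]) <;> linear_combination (0 : K) * h2
      · (try simp only [map_add, map_mul, map_pow, map_zero, map_one, hff, it51, it53, it60, it63, it65, it69, it70, it71]) <;> linear_combination (0 : K) * h2
      · (try simp only [map_add, map_mul, map_pow, map_zero, map_one, hff, it51, it53, it60, it63, it65, it69, it70, it71]) <;> linear_combination (0 : K) * h2
      · (try simp only [map_add, map_mul, map_pow, map_zero, map_one, hff, it51, it53, it60, it63, it65, it69, it70, it71]) <;> linear_combination (0 : K) * h2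
      · (try simp only [map_add, map_mul, map_pow, map_zero, map_one, hff, it51, it53, it60, it63, it65, it69, it70, it71]) <;> linear_combination (0 : K) * h2
      · (try simp only [map_add, map_mul, map_pow, map_zero, map_one, hff, it51, it53, it60, it63, it65, it69, it70, it71]) <;> linear_combination (0 : K) * h2
      · (try simp only [map_add, map_mul, map_pow, map_zero, map_one, hff, it51, it53, it60, it63, it65, it69, it70, it71]) <;> linear_combination (0 : K) * h2

theorem W49_1 {l41 l45 l54 l55 l66 t44 t53 t60 t63 t65 t69 t70 t71 : K} (d : Dt f) (hp41 : l41 ≠ 0) (hm : E f 0 0 0 0 0 (l41) (t44) (l45) 0 0 0 0 0 0 (t53) (l54) (l55) (t60) (t63) (t65) (l66) (t69) (t70) (t71) ∈ (sc f).G1) (hs : E f 0 0 0 0 0 (l41) (t44) (l45) 0 0 0 0 0 0 (t53) (l54) (l55) (t60) (t63) (t65) (l66) (t69) (t70) (t71) * E f 0 0 0 0 0 (l41) (t44) (l45) 0 0 0 0 0 0 (t53) (l54) (l55) (t60) (t63) (t65) (l66) (t69) (t70) (t71) = 1) : Res f (E f 0 0 0 0 0 (l41) (t44) (l45) 0 0 0 0 0 0 (t53) (l54) (l55) (t60) (t63) (t65) (l66) (t69) (t70) (t71)) := by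
  exact C41 d hp41 hm hs

theorem W49 {l49 l52 l54 l55 l66 t51 t53 t60 t63 t65 t69 t70 t71 : K} (d : Dt f) (hp49 : l49 ≠ 0) (hm : E f 0 0 0 0 0 0 0 0 0 0 0 (l49) (t51) (l52) (t53) (l54) (l55) (t60) (t63) (t65) (l66) (t69) (t70) (t71) ∈ (sc f).G1) (hs : E f 0 0 0 0 0 0 0 0 0 0 0 (l49) (t51) (l52) (t53) (l54) (l55) (t60) (t63) (t65) (l66) (t69) (t70) (t71) * E f 0 0 0 0 0 0 0 0 0 0 0 (l49) (t51) (l52) (t53) (l54) (l55) (t60) (t63) (t65) (l66) (t69) (t70) (t71) = 1) : Res f (E f 0 0 0 0 0 0 0 0 0 0 0 (l49) (t51) (l52) (t53) (l54) (l55) (t60) (t63) (t65) (l66) (t69) (t70) (t71)) := by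
  obtain ⟨it39, it44, it46, it47, it51, it53, it60, it63, it65, it69, it70, it71⟩ := inv_of_mem d hm
  have c : Cj f (E f 0 0 0 0 0 0 0 0 0 0 0 (l49) (t51) (l52) (t53) (l54) (l55) (t60) (t63) (t65) (l66) (t69) (t70) (t71)) (E f 0 0 0 0 0 (l49) (t51) (l52) 0 0 0 0 0 0 (t53) (l54) (l55) (t63) (t60) (t65) (l66) (t69) (t71) (t70)) := cjN f (nR_mem f [0]) (nE_W49 d.hff it51 it53 it60 it63 it65 it69 it70 it71)
  exact Res.of_cj f c (W49_1 d hp49 (c.mem f hm) (c.sq f hs))

theorem C49 {l36 l37 l38 l40 l41 l45 l48 l49 l52 l54 l55 l66 t39 t44 t46 t47 t51 t53 t60 t63 t65 t69 t70 t71 : K} (d : Dt f) (hp49 : l49 ≠ 0) (hm : E f (l36) (l37) (l38) (t39) (l40) (l41) (t44) (l45) (t46) (t47) (l48) (l49) (t51) (l52) (t53) (l54) (l55) (t60) (t63) (t65) (l66) (t69) (t70) (t71) ∈ (sc f).G1) (hs : E f (l36) (l37) (l38) (t39) (l40) (l41) (t44) (l45) (t46) (t47) (l48) (l49) (t51) (l52) (t53) (l54) (l55) (t60) (t63) (t65) (l66) (t69) (t70) (t71) * E f (l36) (l37) (l38) (t39) (l40) (l41) (t44) (l45) (t46) (t47) (l48) (l49) (t51) (l52) (t53) (l54) (l55) (t60) (t63) (t65) (l66)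 (t69) (t70) (t71) = 1) : Res f (E f (l36) (l37) (l38) (t39) (l40) (l41) (t44) (l45) (t46) (t47) (l48) (l49) (t51) (l52) (t53) (l54) (l55) (t60) (t63) (t65) (l66) (t69) (t70) (t71)) := by
  by_cases h46 : t46 = 0
  swap
  · exact C46 d h46 hm hs
  subst h46
  by_cases h39 : t39 = 0
  swap
  · exact C39 d h39 hm hs
  subst h39
  by_cases h37 : l37 = 0
  swap
  · exact C37 d h37 hm hs
  subst h37
  by_cases h36 : l36 = 0
  swap
  · exact C36 d h36 hm hs
  subst h36
  by_cases h38 : l38 = 0
  swap
  · exact C38 d h38 hm hs
  subst h38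
  by_cases h40 : l40 = 0
  swap
  · exact C40 d h40 hm hs
  subst h40
  by_cases h47 : t47 = 0
  swap
  · exact C47 d h47 hm hs
  subst h47
  by_cases h41 : l41 = 0
  swap
  · exact C41 d h41 hm hs
  subst h41
  by_cases h44 : t44 = 0
  swap
  · exact C44 d h44 hm hs
  subst h44
  by_cases h48 : l48 = 0
  swap
  · exact C48 d h48 hm hs
  subst h48
  by_cases h45 : l45 = 0
  swap
  · exact C45 d h45 hm hs
  subst h45
  exact W49 d hp49 hm hs

end Cfsg.Agent.Lib.E6Inv50
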