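import Cfsg.Agent.Lib.E6Inv50L

/-!
# The involutions of `²E₆(q)`, `q` even: reduction chains
-/

set_option autoImplicit false
set_option linter.unusedSectionVars false
set_option linter.unusedVariables false
set_option linter.unusedSimpArgs false
set_option maxRecDepth 100000
set_option maxHeartbeats 4000000
set_option linter.unusedTactic false
set_option linter.unreachableTactic false

namespace Cfsg.Agent.Lib.E6Inv50

open Cfsg Cfsg.Lie Cfsg.Agent.Lib.Chev Cfsg.Agent.Lib.Chev.TwE6

variable {K : Type*} [Field K] [CharP K 2] [Fintype K] {f : K ≃+* K}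

theorem nE_W51 {l52 l54 l55 l66 t51 t53 t60 t63 t65 t69 t70 t71 : K} (hff : ∀ t, f (f t) = t) (it51 : f t51 = t51) (it53 : f t53 = t53) (it60 : f t60 = t60) (it63 : f t63 = t63) (it65 : f t65 = t65) (it69 : f t69 = t69) (it70 : f t70 = t70) (it71 : f t71 = t71) :
    nR [0] * E f 0 0 0 0 0 0 0 0 0 0 0 0 (t51) (l52) (t53) (l54) (l55) (t60) (t63) (t65) (l66) (t69) (t70) (t71) * (nR [0])⁻¹ = E f 0 0 0 0 0 0 (t51) (l52) 0 0 0 0 0 0 (t53) (l54) (l55) (t63) (t60) (t65) (l66) (t69) (t71) (t70) := by
  have h2 : (2 : K) = 0 := CharTwo.two_eq_zero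
  have c51 := fun t : K => nR_at (l := [0]) (s := 51) (m := 44) (by decide +kernel) t
  have c52 := fun t : K => nR_at (l := [0]) (s := 52) (m := 45) (by decide +kernel) t
  have c53 := fun t : K => nR_at (l := [0]) (s := 53) (m := 53) (by decide +kernel) t
  have c54 := fun t : K => nR_at (l := [0]) (s := 54) (m := 54) (by decide +kernel) t
  have c55 := fun t : K => nR_at (l := [0]) (s := 55) (m := 55) (by decide +kernel) t
  have c60 := fun t : K => nR_at (l := [0]) (s := 60) (m := 63) (by decide +kernel) t
  have c62 := fun t : K => nR_at (l := [0]) (s := 62) (m := 59) (by decide +kernel) t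
  have c63 := fun t : K => nR_at (l := [0]) (s := 63) (m := 60) (by decide +kernel) t
  have c64 := fun t : K => nR_at (l := [0]) (s := 64) (m := 64) (by decide +kernel) t
  have c65 := fun t : K => nR_at (l := [0]) (s := 65) (m := 65) (by decide +kernel) t
  have c66 := fun t : K => nR_at (l := [0]) (s := 66) (m := 66) (by decide +kernel) t
  have c67 := fun t : K => nR_at (l := [0]) (s := 67) (m := 67) (by decide +kernel) t
  have c68 := fun t : K => nR_at (l := [0]) (s := 68) (m := 68) (by decide +kernel) t
  have c69 := fun t : K => nR_at (l := [0]) (s := 69) (m := 69) (by decide +kernel) t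
  have c70 := fun t : K => nR_at (l := [0]) (s := 70) (m := 71) (by decide +kernel) t
  have c71 := fun t : K => nR_at (l := [0]) (s := 71) (m := 70) (by decide +kernel) t
  unfold E
  rw [conj_W]
  simp only [map_zero, zero_mul, mul_zero, add_zero, zero_add, conj_x0, one_mul, c51, c52, c53, c54, c55, c60, c62, c63, c64, c65, c66, c67, c68, c69, c70, c71]
  rw [← W_zero (K := K)]
  simp only [xW_44, xW_45, xW_53, xW_54, xW_55, xW_59, xW_60, xW_63, xW_64, xW_65, xW_66, xW_67, xW_68, xW_69, xW_70, xW_71, zero_mul, mul_zero, add_zero, zero_add]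
  first
    | done
    | apply W_congr
      · (try simp only [map_add, map_mul, map_pow, map_zero, map_one, hff, it51, it53, it60, it63, it65, it69, it70, it71]) <;> linear_combination (0 : K) * h2
      · (try simp only [map_add, map_mul, map_pow, map_zero, map_one, hff, it51, it53, it60, it63, it65, it69, it70, it71]) <;> linear_combination (0 : K) * h2
      · (try simp only [map_add, map_mul, map_pow, map_zero, map_one, hff, it51, it53, it60, it63, it65, it69, it70, it71]) <;> linear_combination (0 : K) * h2
      · (try simp only [map_add, map_mul, map_pow, map_zero, map_one, hff, it51, it53, it60, it63, it65, it69, it70, it71]) <;> linear_combination (0 : K) * h2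
      · (try simp only [map_add, map_mul, map_pow, map_zero, map_one, hff, it51, it53, it60, it63, it65, it69, it70, it71]) <;> linear_combination (0 : K) * h2
      · (try simp only [map_add, map_mul, map_pow, map_zero, map_one, hff, it51, it53, it60, it63, it65, it69, it70, it71]) <;> linear_combination (0 : K) * h2
      · (try simp only [map_add, map_mul, map_pow, map_zero, map_one, hff, it51, it53, it60, it63, it65, it69, it70, it71]) <;> linear_combination (0 : K) * h2
      · (try simp only [map_add, map_mul, map_pow, map_zero, map_one, hff, it51, it53, it60, it63, it65, it69, it70, it71]) <;> linear_combination (0 : K) * h2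
      · (try simp only [map_add, map_mul, map_pow, map_zero, map_one, hff, it51, it53, it60, it63, it65, it69, it70, it71]) <;> linear_combination (0 : K) * h2
      · (try simp only [map_add, map_mul, map_pow, map_zero, map_one, hff, it51, it53, it60, it63, it65, it69, it70, it71]) <;> linear_combination (0 : K) * h2
      · (try simp only [map_add, map_mul, map_pow, map_zero, map_one, hff, it51, it53, it60, it63, it65, it69, it70, it71]) <;> linear_combination (0 : K) * h2
      · (try simp only [map_add, map_mul, map_pow, map_zero, map_one, hff, it51, it53, it60, it63, it65, it69, it70, it71]) <;> linear_combination (0 : K) * h2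
      · (try simp only [map_add, map_mul, map_pow, map_zero, map_one, hff, it51, it53, it60, it63, it65, it69, it70, it71]) <;> linear_combination (0 : K) * h2
      · (try simp only [map_add, map_mul, map_pow, map_zero, map_one, hff, it51, it53, it60, it63, it65, it69, it70, it71]) <;> linear_combination (0 : K) * h2
      · (try simp only [map_add, map_mul, map_pow, map_zero, map_one, hff, it51, it53, it60, it63, it65, it69, it70, it71]) <;> linear_combination (0 : K) * h2
      · (try simp only [map_add, map_mul, map_pow, map_zero, map_one, hff, it51, it53, it60, it63, it65, it69, it70, it71]) <;> linear_combination (0 : K) * h2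
      · (try simp only [map_add, map_mul, map_pow, map_zero, map_one, hff, it51, it53, it60, it63, it65, it69, it70, it71]) <;> linear_combination (0 : K) * h2
      · (try simp only [map_add, map_mul, map_pow, map_zero, map_one, hff, it51, it53, it60, it63, it65, it69, it70, it71]) <;> linear_combination (0 : K) * h2
      · (try simp only [map_add, map_mul, map_pow, map_zero, map_one, hff, it51, it53, it60, it63, it65, it69, it70, it71]) <;> linear_combination (0 : K) * h2
      · (try simp only [map_add, map_mul, map_pow, map_zero, map_one, hff, it51, it53, it60, it63, it65, it69, it70, it71]) <;> linear_combination (0 : K) * h2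
      · (try simp only [map_add, map_mul, map_pow, map_zero, map_one, hff, it51, it53, it60, it63, it65, it69, it70, it71]) <;> linear_combination (0 : K) * h2
      · (try simp only [map_add, map_mul, map_pow, map_zero, map_one, hff, it51, it53, it60, it63, it65, it69, it70, it71]) <;> linear_combination (0 : K) * h2
      · (try simp only [map_add, map_mul, map_pow, map_zero, map_one, hff, it51, it53, it60, it63, it65, it69, it70, it71]) <;> linear_combination (0 : K) * h2
      · (try simp only [map_add, map_mul, map_pow, map_zero, map_one, hff, it51, it53, it60, it63, it65, it69, it70, it71]) <;> linear_combination (0 : K) * h2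
      · (try simp only [map_add, map_mul, map_pow, map_zero, map_one, hff, it51, it53, it60, it63, it65, it69, it70, it71]) <;> linear_combination (0 : K) * h2
      · (try simp only [map_add, map_mul, map_pow, map_zero, map_one, hff, it51, it53, it60, it63, it65, it69, it70, it71]) <;> linear_combination (0 : K) * h2
      · (try simp only [map_add, map_mul, map_pow, map_zero, map_one, hff, it51, it53, it60, it63, it65, it69, it70, it71]) <;> linear_combination (0 : K) * h2
      · (try simp only [map_add, map_mul, map_pow, map_zero, map_one, hff, it51, it53, it60, it63, it65, it69, it70, it71]) <;> linear_combination (0 : K) * h2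
      · (try simp only [map_add, map_mul, map_pow, map_zero, map_one, hff, it51, it53, it60, it63, it65, it69, it70, it71]) <;> linear_combination (0 : K) * h2
      · (try simp only [map_add, map_mul, map_pow, map_zero, map_one, hff, it51, it53, it60, it63, it65, it69, it70, it71]) <;> linear_combination (0 : K) * h2
      · (try simp only [map_add, map_mul, map_pow, map_zero, map_one, hff, it51, it53, it60, it63, it65, it69, it70, it71]) <;> linear_combination (0 : K) * h2
      · (try simp only [map_add, map_mul, map_pow, map_zero, map_one, hff, it51, it53, it60, it63, it65, it69, it70, it71]) <;> linear_combination (0 : K) * h2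
      · (try simp only [map_add, map_mul, map_pow, map_zero, map_one, hff, it51, it53, it60, it63, it65, it69, it70, it71]) <;> linear_combination (0 : K) * h2
      · (try simp only [map_add, map_mul, map_pow, map_zero, map_one, hff, it51, it53, it60, it63, it65, it69, it70, it71]) <;> linear_combination (0 : K) * h2
      · (try simp only [map_add, map_mul, map_pow, map_zero, map_one, hff, it51, it53, it60, it63, it65, it69, it70, it71]) <;> linear_combination (0 : K) * h2
      · (try simp only [map_add, map_mul, map_pow, map_zero, map_one, hff, it51, it53, it60, it63, it65, it69, it70, it71]) <;> linear_combination (0 : K) * h2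

theorem W51_1 {l45 l54 l55 l66 t44 t53 t60 t63 t65 t69 t70 t71 : K} (d : Dt f) (hp44 : t44 ≠ 0) (hm : E f 0 0 0 0 0 0 (t44) (l45) 0 0 0 0 0 0 (t53) (l54) (l55) (t60) (t63) (t65) (l66) (t69) (t70) (t71) ∈ (sc f).G1) (hs : E f 0 0 0 0 0 0 (t44) (l45) 0 0 0 0 0 0 (t53) (l54) (l55) (t60) (t63) (t65) (l66) (t69) (t70) (t71) * E f 0 0 0 0 0 0 (t44) (l45) 0 0 0 0 0 0 (t53) (l54) (l55) (t60) (t63) (t65) (l66) (t69) (t70) (t71) = 1) : Res f (E f 0 0 0 0 0 0 (t44) (l45) 0 0 0 0 0 0 (t53) (l54) (l55) (t60) (t63) (t65) (l66) (t69) (t70) (t71)) := by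
  exact C44 d hp44 hm hs

theorem W51 {l52 l54 l55 l66 t51 t53 t60 t63 t65 t69 t70 t71 : K} (d : Dt f) (hp51 : t51 ≠ 0) (hm : E f 0 0 0 0 0 0 0 0 0 0 0 0 (t51) (l52) (t53) (l54) (l55) (t60) (t63) (t65) (l66) (t69) (t70) (t71) ∈ (sc f).G1) (hs : E f 0 0 0 0 0 0 0 0 0 0 0 0 (t51) (l52) (t53) (l54) (l55) (t60) (t63) (t65) (l66) (t69) (t70) (t71) * E f 0 0 0 0 0 0 0 0 0 0 0 0 (t51) (l52) (t53) (l54) (l55) (t60) (t63) (t65) (l66) (t69) (t70) (t71) = 1) : Res f (E f 0 0 0 0 0 0 0 0 0 0 0 0 (t51) (l52) (t53) (l54) (l55) (t60) (t63) (t65) (l66) (t69) (t70) (t71)) := by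
  obtain ⟨it39, it44, it46, it47, it51, it53, it60, it63, it65, it69, it70, it71⟩ := inv_of_mem d hm
  have c : Cj f (E f 0 0 0 0 0 0 0 0 0 0 0 0 (t51) (l52) (t53) (l54) (l55) (t60) (t63) (t65) (l66) (t69) (t70) (t71)) (E f 0 0 0 0 0 0 (t51) (l52) 0 0 0 0 0 0 (t53) (l54) (l55) (t63) (t60) (t65) (l66) (t69) (t71) (t70)) := cjN f (nR_mem f [0]) (nE_W51 d.hff it51 it53 it60 it63 it65 it69 it70 it71)
  exact Res.of_cj f c (W51_1 d hp51 (c.mem f hm) (c.sq f hs))

theorem C51 {l36 l37 l38 l40 l41 l45 l48 l49 l52 l54 l55 l66 t39 t44 t46 t47 t51 t53 t60 t63 t65 t69 t70 t71 : K} (d : Dt f) (hp51 : t51 ≠ 0) (hm : E f (l36) (l37) (l38) (t39) (l40) (l41) (t44) (l45) (t46) (t47) (l48) (l49) (t51) (l52) (t53) (l54) (l55) (t60) (t63) (t65) (l66) (t69) (t70) (t71) ∈ (sc f).G1) (hs : E f (l36) (l37) (l38) (t39) (l40) (l41) (t44) (l45) (t46) (t47) (l48) (l49) (t51) (l52) (t53) (l54) (l55) (t60) (t63) (t65) (l66) (t69) (t70) (t71) * E f (l36) (l37) (l38) (t39) (l40) (l41) (t44) (l45) (t46) (t47) (l48) (l49) (t51) (l52) (t53) (l54) (l55) (t60) (t63) (t65) (l66) (t69) (t70)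 (t71) = 1) : Res f (E f (l36) (l37) (l38) (t39) (l40) (l41) (t44) (l45) (t46) (t47) (l48) (l49) (t51) (l52) (t53) (l54) (l55) (t60) (t63) (t65) (l66) (t69) (t70) (t71)) := by
  by_cases h46 : t46 = 0
  swap
  · exact C46 d h46 hm hs
  subst h46
  by_cases h39 : t39 = 0
  swap
  · exact C39 d h39 hm hs
  subst h39
  by_cases h37 : l37 = 0
  swap
  · exact C37 d h37 hm hs
  subst h37
  by_cases h36 : l36 = 0
  swap
  · exact C36 d h36 hm hs
  subst h36
  by_cases h38 : l38 = 0
  swap
  · exact C38 d h38 hm hs
  subst h38
  by_cases h40 : l40 = 0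
  swap
  · exact C40 d h40 hm hs
  subst h40
  by_cases h47 : t47 = 0
  swap
  · exact C47 d h47 hm hs
  subst h47
  by_cases h41 : l41 = 0
  swap
  · exact C41 d h41 hm hs
  subst h41
  by_cases h44 : t44 = 0
  swap
  · exact C44 d h44 hm hs
  subst h44
  by_cases h48 : l48 = 0
  swap
  · exact C48 d h48 hm hs
  subst h48
  by_cases h45 : l45 = 0
  swap
  · exact C45 d h45 hm hs
  subst h45
  by_cases h49 : l49 = 0
  swap
  · exact C49 d h49 hm hs
  subst h49
  exact W51 d hp51 hm hs

theorem nE_W52 {l52 l54 l55 l66 t53 t60 t63 t65 t69 t70 t71 : K} (hff : ∀ t, f (f t) = t) (it53 : f t53 = t53) (it60 : f t60 = t60) (it63 : f t63 = t63) (it65 : f t65 = t65) (it69 : f t69 = t69) (it70 : f t70 = t70) (it71 : f t71 = t71) :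
    nR [0] * E f 0 0 0 0 0 0 0 0 0 0 0 0 0 (l52) (t53) (l54) (l55) (t60) (t63) (t65) (l66) (t69) (t70) (t71) * (nR [0])⁻¹ = E f 0 0 0 0 0 0 0 (l52) 0 0 0 0 0 0 (t53) (l54) (l55) (t63) (t60) (t65) (l66) (t69) (t71) (t70) := by
  have h2 : (2 : K) = 0 := CharTwo.two_eq_zero
  have c52 := fun t : K => nR_at (l := [0]) (s := 52) (m := 45) (by decide +kernel) t
  have c53 := fun t : K => nR_at (l := [0]) (s := 53) (m := 53) (by decide +kernel) t
  have c54 := fun t : K => nR_at (l := [0]) (s := 54) (m := 54) (by decide +kernel) t
  have c55 := fun t : K => nR_at (l := [0]) (s := 55) (m := 55) (by decide +kernel) t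
  have c60 := fun t : K => nR_at (l := [0]) (s := 60) (m := 63) (by decide +kernel) t
  have c62 := fun t : K => nR_at (l := [0]) (s := 62) (m := 59) (by decide +kernel) t
  have c63 := fun t : K => nR_at (l := [0]) (s := 63) (m := 60) (by decide +kernel) t
  have c64 := fun t : K => nR_at (l := [0]) (s := 64) (m := 64) (by decide +kernel) t
  have c65 := fun t : K => nR_at (l := [0]) (s := 65) (m := 65) (by decide +kernel) t
  have c66 := fun t : K => nR_at (l := [0]) (s := 66) (m := 66) (by decide +kernel) t
  have c67 := fun t : K => nR_at (l := [0]) (s := 67) (m := 67) (by decide +kernel) t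
  have c68 := fun t : K => nR_at (l := [0]) (s := 68) (m := 68) (by decide +kernel) t
  have c69 := fun t : K => nR_at (l := [0]) (s := 69) (m := 69) (by decide +kernel) t
  have c70 := fun t : K => nR_at (l := [0]) (s := 70) (m := 71) (by decide +kernel) t
  have c71 := fun t : K => nR_at (l := [0]) (s := 71) (m := 70) (by decide +kernel) t
  unfold E
  rw [conj_W]
  simp only [map_zero, zero_mul, mul_zero, add_zero, zero_add, conj_x0, one_mul, c52, c53, c54, c55, c60, c62, c63, c64, c65, c66, c67, c68, c69, c70, c71]
  rw [← W_zero (K := K)]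
  simp only [xW_45, xW_53, xW_54, xW_55, xW_59, xW_60, xW_63, xW_64, xW_65, xW_66, xW_67, xW_68, xW_69, xW_70, xW_71, zero_mul, mul_zero, add_zero, zero_add]
  first
    | done
    | apply W_congr
      · (try simp only [map_add, map_mul, map_pow, map_zero, map_one, hff, it53, it60, it63, it65, it69, it70, it71]) <;> linear_combination (0 : K) * h2
      · (try simp only [map_add, map_mul, map_pow, map_zero, map_one, hff, it53, it60, it63, it65, it69, it70, it71]) <;> linear_combination (0 : K) * h2
      · (try simp only [map_add, map_mul, map_pow, map_zero, map_one, hff, it53, it60, it63, it65, it69, it70, it71]) <;> linear_combination (0 : K) * h2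
      · (try simp only [map_add, map_mul, map_pow, map_zero, map_one, hff, it53, it60, it63, it65, it69, it70, it71]) <;> linear_combination (0 : K) * h2
      · (try simp only [map_add, map_mul, map_pow, map_zero, map_one, hff, it53, it60, it63, it65, it69, it70, it71]) <;> linear_combination (0 : K) * h2
      · (try simp only [map_add, map_mul, map_pow, map_zero, map_one, hff, it53, it60, it63, it65, it69, it70, it71]) <;> linear_combination (0 : K) * h2
      · (try simp only [map_add, map_mul, map_pow, map_zero, map_one, hff, it53, it60, it63, it65, it69, it70, it71]) <;> linear_combination (0 : K) * h2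
      · (try simp only [map_add, map_mul, map_pow, map_zero, map_one, hff, it53, it60, it63, it65, it69, it70, it71]) <;> linear_combination (0 : K) * h2
      · (try simp only [map_add, map_mul, map_pow, map_zero, map_one, hff, it53, it60, it63, it65, it69, it70, it71]) <;> linear_combination (0 : K) * h2
      · (try simp only [map_add, map_mul, map_pow, map_zero, map_one, hff, it53, it60, it63, it65, it69, it70, it71]) <;> linear_combination (0 : K) * h2
      · (try simp only [map_add, map_mul, map_pow, map_zero, map_one, hff, it53, it60, it63, it65, it69, it70, it71]) <;> linear_combination (0 : K) * h2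
      · (try simp only [map_add, map_mul, map_pow, map_zero, map_one, hff, it53, it60, it63, it65, it69, it70, it71]) <;> linear_combination (0 : K) * h2
      · (try simp only [map_add, map_mul, map_pow, map_zero, map_one, hff, it53, it60, it63, it65, it69, it70, it71]) <;> linear_combination (0 : K) * h2
      · (try simp only [map_add, map_mul, map_pow, map_zero, map_one, hff, it53, it60, it63, it65, it69, it70, it71]) <;> linear_combination (0 : K) * h2
      · (try simp only [map_add, map_mul, map_pow, map_zero, map_one, hff, it53, it60, it63, it65, it69, it70, it71]) <;> linear_combination (0 : K) * h2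
      · (try simp only [map_add, map_mul, map_pow, map_zero, map_one, hff, it53, it60, it63, it65, it69, it70, it71]) <;> linear_combination (0 : K) * h2
      · (try simp only [map_add, map_mul, map_pow, map_zero, map_one, hff, it53, it60, it63, it65, it69, it70, it71]) <;> linear_combination (0 : K) * h2
      · (try simp only [map_add, map_mul, map_pow, map_zero, map_one, hff, it53, it60, it63, it65, it69, it70, it71]) <;> linear_combination (0 : K) * h2
      · (try simp only [map_add, map_mul, map_pow, map_zero, map_one, hff, it53, it60, it63, it65, it69, it70, it71]) <;> linear_combination (0 : K) * h2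
      · (try simp only [map_add, map_mul, map_pow, map_zero, map_one, hff, it53, it60, it63, it65, it69, it70, it71]) <;> linear_combination (0 : K) * h2
      · (try simp only [map_add, map_mul, map_pow, map_zero, map_one, hff, it53, it60, it63, it65, it69, it70, it71]) <;> linear_combination (0 : K) * h2
      · (try simp only [map_add, map_mul, map_pow, map_zero, map_one, hff, it53, it60, it63, it65, it69, it70, it71]) <;> linear_combination (0 : K) * h2
      · (try simp only [map_add, map_mul, map_pow, map_zero, map_one, hff, it53, it60, it63, it65, it69, it70, it71]) <;> linear_combination (0 : K) * h2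
      · (try simp only [map_add, map_mul, map_pow, map_zero, map_one, hff, it53, it60, it63, it65, it69, it70, it71]) <;> linear_combination (0 : K) * h2
      · (try simp only [map_add, map_mul, map_pow, map_zero, map_one, hff, it53, it60, it63, it65, it69, it70, it71]) <;> linear_combination (0 : K) * h2
      · (try simp only [map_add, map_mul, map_pow, map_zero, map_one, hff, it53, it60, it63, it65, it69, it70, it71]) <;> linear_combination (0 : K) * h2
      · (try simp only [map_add, map_mul, map_pow, map_zero, map_one, hff, it53, it60, it63, it65, it69, it70, it71]) <;> linear_combination (0 : K) * h2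
      · (try simp only [map_add, map_mul, map_pow, map_zero, map_one, hff, it53, it60, it63, it65, it69, it70, it71]) <;> linear_combination (0 : K) * h2
      · (try simp only [map_add, map_mul, map_pow, map_zero, map_one, hff, it53, it60, it63, it65, it69, it70, it71]) <;> linear_combination (0 : K) * h2
      · (try simp only [map_add, map_mul, map_pow, map_zero, map_one, hff, it53, it60, it63, it65, it69, it70, it71]) <;> linear_combination (0 : K) * h2
      · (try simp only [map_add, map_mul, map_pow, map_zero, map_one, hff, it53, it60, it63, it65, it69, it70, it71]) <;> linear_combination (0 : K) * h2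
      · (try simp only [map_add, map_mul, map_pow, map_zero, map_one, hff, it53, it60, it63, it65, it69, it70, it71]) <;> linear_combination (0 : K) * h2
      · (try simp only [map_add, map_mul, map_pow, map_zero, map_one, hff, it53, it60, it63, it65, it69, it70, it71]) <;> linear_combination (0 : K) * h2
      · (try simp only [map_add, map_mul, map_pow, map_zero, map_one, hff, it53, it60, it63, it65, it69, it70, it71]) <;> linear_combination (0 : K) * h2
      · (try simp only [map_add, map_mul, map_pow, map_zero, map_one, hff, it53, it60, it63, it65, it69, it70, it71]) <;> linear_combination (0 : K) * h2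
      · (try simp only [map_add, map_mul, map_pow, map_zero, map_one, hff, it53, it60, it63, it65, it69, it70, it71]) <;> linear_combination (0 : K) * h2

theorem W52_1 {l45 l54 l55 l66 t53 t60 t63 t65 t69 t70 t71 : K} (d : Dt f) (hp45 : l45 ≠ 0) (hm : E f 0 0 0 0 0 0 0 (l45) 0 0 0 0 0 0 (t53) (l54) (l55) (t60) (t63) (t65) (l66) (t69) (t70) (t71) ∈ (sc f).G1) (hs : E f 0 0 0 0 0 0 0 (l45) 0 0 0 0 0 0 (t53) (l54) (l55) (t60) (t63) (t65) (l66) (t69) (t70) (t71) * E f 0 0 0 0 0 0 0 (l45) 0 0 0 0 0 0 (t53) (l54) (l55) (t60) (t63) (t65) (l66) (t69) (t70) (t71) = 1) : Res f (E f 0 0 0 0 0 0 0 (l45) 0 0 0 0 0 0 (t53) (l54) (l55) (t60) (t63) (t65) (l66) (t69) (t70) (t71)) := by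
  exact C45 d hp45 hm hs

theorem W52 {l52 l54 l55 l66 t53 t60 t63 t65 t69 t70 t71 : K} (d : Dt f) (hp52 : l52 ≠ 0) (hm : E f 0 0 0 0 0 0 0 0 0 0 0 0 0 (l52) (t53) (l54) (l55) (t60) (t63) (t65) (l66) (t69) (t70) (t71) ∈ (sc f).G1) (hs : E f 0 0 0 0 0 0 0 0 0 0 0 0 0 (l52) (t53) (l54) (l55) (t60) (t63) (t65) (l66) (t69) (t70) (t71) * E f 0 0 0 0 0 0 0 0 0 0 0 0 0 (l52) (t53) (l54) (l55) (t60) (t63) (t65) (l66) (t69) (t70) (t71) = 1) : Res f (E f 0 0 0 0 0 0 0 0 0 0 0 0 0 (l52) (t53) (l54) (l55) (t60) (t63) (t65) (l66) (t69) (t70) (t71)) := by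
  obtain ⟨it39, it44, it46, it47, it51, it53, it60, it63, it65, it69, it70, it71⟩ := inv_of_mem d hm
  have c : Cj f (E f 0 0 0 0 0 0 0 0 0 0 0 0 0 (l52) (t53) (l54) (l55) (t60) (t63) (t65) (l66) (t69) (t70) (t71)) (E f 0 0 0 0 0 0 0 (l52) 0 0 0 0 0 0 (t53) (l54) (l55) (t63) (t60) (t65) (l66) (t69) (t71) (t70)) := cjN f (nR_mem f [0]) (nE_W52 d.hff it53 it60 it63 it65 it69 it70 it71)
  exact Res.of_cj f c (W52_1 d hp52 (c.mem f hm) (c.sq f hs))

theorem C52 {l36 l37 l38 l40 l41 l45 l48 l49 l52 l54 l55 l66 t39 t44 t46 t47 t51 t53 t60 t63 t65 t69 t70 t71 : K} (d : Dt f) (hp52 : l52 ≠ 0) (hm : E f (l36) (l37) (l38) (t39) (l40) (l41) (t44) (l45) (t46) (t47) (l48) (l49) (t51) (l52) (t53) (l54) (l55) (t60) (t63) (t65) (l66) (t69) (t70) (t71) ∈ (sc f).G1) (hs : E f (l36) (l37) (l38) (t39) (l40) (l41) (t44) (l45) (t46) (t47) (l48) (l49) (t51) (l52) (t53) (l54) (l55) (t60) (t63) (t65) (l66) (t69) (t70) (t71) * E f (l36) (l37) (l38) (t39) (l40) (l41) (t44) (l45) (t46) (t47) (l48) (l49) (t51) (l52) (t53) (l54) (l55) (t60) (t63) (t65) (l66) (t69) (t70) (t71) = 1)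 : Res f (E f (l36) (l37) (l38) (t39) (l40) (l41) (t44) (l45) (t46) (t47) (l48) (l49) (t51) (l52) (t53) (l54) (l55) (t60) (t63) (t65) (l66) (t69) (t70) (t71)) := by
  by_cases h46 : t46 = 0
  swap
  · exact C46 d h46 hm hs
  subst h46
  by_cases h39 : t39 = 0
  swap
  · exact C39 d h39 hm hs
  subst h39
  by_cases h37 : l37 = 0
  swap
  · exact C37 d h37 hm hs
  subst h37
  by_cases h36 : l36 = 0
  swap
  · exact C36 d h36 hm hs
  subst h36
  by_cases h38 : l38 = 0
  swap
  · exact C38 d h38 hm hs
  subst h38
  by_cases h40 : l40 = 0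
  swap
  · exact C40 d h40 hm hs
  subst h40
  by_cases h47 : t47 = 0
  swap
  · exact C47 d h47 hm hs
  subst h47
  by_cases h41 : l41 = 0
  swap
  · exact C41 d h41 hm hs
  subst h41
  by_cases h44 : t44 = 0
  swap
  · exact C44 d h44 hm hs
  subst h44
  by_cases h48 : l48 = 0
  swap
  · exact C48 d h48 hm hs
  subst h48
  by_cases h45 : l45 = 0
  swap
  · exact C45 d h45 hm hs
  subst h45
  by_cases h49 : l49 = 0
  swap
  · exact C49 d h49 hm hs
  subst h49
  by_cases h51 : t51 = 0
  swap
  · exact C51 d h51 hm hs
  subst h51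
  exact W52 d hp52 hm hs

theorem nE_W53 {l54 l55 l66 t53 t60 t63 t65 t69 t70 t71 : K} (hff : ∀ t, f (f t) = t) (it53 : f t53 = t53) (it60 : f t60 = t60) (it63 : f t63 = t63) (it65 : f t65 = t65) (it69 : f t69 = t69) (it70 : f t70 = t70) (it71 : f t71 = t71) :
    nR [1] * E f 0 0 0 0 0 0 0 0 0 0 0 0 0 0 (t53) (l54) (l55) (t60) (t63) (t65) (l66) (t69) (t70) (t71) * (nR [1])⁻¹ = E f 0 0 0 0 0 0 0 0 0 0 0 0 (t53) (l54) 0 0 (l55) (t60) (t65) (t63) (l66) (t70) (t69) (t71) := by
  have h2 : (2 : K) = 0 := CharTwo.two_eq_zero
  have c53 := fun t : K => nR_at (l := [1]) (s := 53) (m := 51) (by decide +kernel) t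
  have c54 := fun t : K => nR_at (l := [1]) (s := 54) (m := 52) (by decide +kernel) t
  have c55 := fun t : K => nR_at (l := [1]) (s := 55) (m := 55) (by decide +kernel) t
  have c60 := fun t : K => nR_at (l := [1]) (s := 60) (m := 60) (by decide +kernel) t
  have c63 := fun t : K => nR_at (l := [1]) (s := 63) (m := 65) (by decide +kernel) t
  have c64 := fun t : K => nR_at (l := [1]) (s := 64) (m := 62) (by decide +kernel) t
  have c65 := fun t : K => nR_at (l := [1]) (s := 65) (m := 63) (by decide +kernel) t
  have c66 := fun t : K => nR_at (l := [1]) (s := 66) (m := 66) (by decide +kernel) t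
  have c67 := fun t : K => nR_at (l := [1]) (s := 67) (m := 67) (by decide +kernel) t
  have c68 := fun t : K => nR_at (l := [1]) (s := 68) (m := 68) (by decide +kernel) t
  have c69 := fun t : K => nR_at (l := [1]) (s := 69) (m := 70) (by decide +kernel) t
  have c70 := fun t : K => nR_at (l := [1]) (s := 70) (m := 69) (by decide +kernel) t
  have c71 := fun t : K => nR_at (l := [1]) (s := 71) (m := 71) (by decide +kernel) t
  unfold E
  rw [conj_W]
  simp only [map_zero, zero_mul, mul_zero, add_zero, zero_add, conj_x0, one_mul, c53, c54, c55, c60, c63, c64, c65, c66, c67, c68, c69, c70, c71]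
  rw [← W_zero (K := K)]
  simp only [xW_51, xW_52, xW_55, xW_60, xW_62, xW_63, xW_65, xW_66, xW_67, xW_68, xW_69, xW_70, xW_71, zero_mul, mul_zero, add_zero, zero_add]
  first
    | done
    | apply W_congr
      · (try simp only [map_add, map_mul, map_pow, map_zero, map_one, hff, it53, it60, it63, it65, it69, it70, it71]) <;> linear_combination (0 : K) * h2
      · (try simp only [map_add, map_mul, map_pow, map_zero, map_one, hff, it53, it60, it63, it65, it69, it70, it71]) <;> linear_combination (0 : K) * h2
      · (try simp only [map_add, map_mul, map_pow, map_zero, map_one, hff, it53, it60, it63, it65, it69, it70, it71]) <;> linear_combination (0 : K) * h2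
      · (try simp only [map_add, map_mul, map_pow, map_zero, map_one, hff, it53, it60, it63, it65, it69, it70, it71]) <;> linear_combination (0 : K) * h2
      · (try simp only [map_add, map_mul, map_pow, map_zero, map_one, hff, it53, it60, it63, it65, it69, it70, it71]) <;> linear_combination (0 : K) * h2
      · (try simp only [map_add, map_mul, map_pow, map_zero, map_one, hff, it53, it60, it63, it65, it69, it70, it71]) <;> linear_combination (0 : K) * h2
      · (try simp only [map_add, map_mul, map_pow, map_zero, map_one, hff, it53, it60, it63, it65, it69, it70, it71]) <;> linear_combination (0 : K) * h2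
      · (try simp only [map_add, map_mul, map_pow, map_zero, map_one, hff, it53, it60, it63, it65, it69, it70, it71]) <;> linear_combination (0 : K) * h2
      · (try simp only [map_add, map_mul, map_pow, map_zero, map_one, hff, it53, it60, it63, it65, it69, it70, it71]) <;> linear_combination (0 : K) * h2
      · (try simp only [map_add, map_mul, map_pow, map_zero, map_one, hff, it53, it60, it63, it65, it69, it70, it71]) <;> linear_combination (0 : K) * h2
      · (try simp only [map_add, map_mul, map_pow, map_zero, map_one, hff, it53, it60, it63, it65, it69, it70, it71]) <;> linear_combination (0 : K) * h2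
      · (try simp only [map_add, map_mul, map_pow, map_zero, map_one, hff, it53, it60, it63, it65, it69, it70, it71]) <;> linear_combination (0 : K) * h2
      · (try simp only [map_add, map_mul, map_pow, map_zero, map_one, hff, it53, it60, it63, it65, it69, it70, it71]) <;> linear_combination (0 : K) * h2
      · (try simp only [map_add, map_mul, map_pow, map_zero, map_one, hff, it53, it60, it63, it65, it69, it70, it71]) <;> linear_combination (0 : K) * h2
      · (try simp only [map_add, map_mul, map_pow, map_zero, map_one, hff, it53, it60, it63, it65, it69, it70, it71]) <;> linear_combination (0 : K) * h2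
      · (try simp only [map_add, map_mul, map_pow, map_zero, map_one, hff, it53, it60, it63, it65, it69, it70, it71]) <;> linear_combination (0 : K) * h2
      · (try simp only [map_add, map_mul, map_pow, map_zero, map_one, hff, it53, it60, it63, it65, it69, it70, it71]) <;> linear_combination (0 : K) * h2
      · (try simp only [map_add, map_mul, map_pow, map_zero, map_one, hff, it53, it60, it63, it65, it69, it70, it71]) <;> linear_combination (0 : K) * h2
      · (try simp only [map_add, map_mul, map_pow, map_zero, map_one, hff, it53, it60, it63, it65, it69, it70, it71]) <;> linear_combination (0 : K) * h2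
      · (try simp only [map_add, map_mul, map_pow, map_zero, map_one, hff, it53, it60, it63, it65, it69, it70, it71]) <;> linear_combination (0 : K) * h2
      · (try simp only [map_add, map_mul, map_pow, map_zero, map_one, hff, it53, it60, it63, it65, it69, it70, it71]) <;> linear_combination (0 : K) * h2
      · (try simp only [map_add, map_mul, map_pow, map_zero, map_one, hff, it53, it60, it63, it65, it69, it70, it71]) <;> linear_combination (0 : K) * h2
      · (try simp only [map_add, map_mul, map_pow, map_zero, map_one, hff, it53, it60, it63, it65, it69, it70, it71]) <;> linear_combination (0 : K) * h2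
      · (try simp only [map_add, map_mul, map_pow, map_zero, map_one, hff, it53, it60, it63, it65, it69, it70, it71]) <;> linear_combination (0 : K) * h2
      · (try simp only [map_add, map_mul, map_pow, map_zero, map_one, hff, it53, it60, it63, it65, it69, it70, it71]) <;> linear_combination (0 : K) * h2
      · (try simp only [map_add, map_mul, map_pow, map_zero, map_one, hff, it53, it60, it63, it65, it69, it70, it71]) <;> linear_combination (0 : K) * h2
      · (try simp only [map_add, map_mul, map_pow, map_zero, map_one, hff, it53, it60, it63, it65, it69, it70, it71]) <;> linear_combination (0 : K) * h2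
      · (try simp only [map_add, map_mul, map_pow, map_zero, map_one, hff, it53, it60, it63, it65, it69, it70, it71]) <;> linear_combination (0 : K) * h2
      · (try simp only [map_add, map_mul, map_pow, map_zero, map_one, hff, it53, it60, it63, it65, it69, it70, it71]) <;> linear_combination (0 : K) * h2
      · (try simp only [map_add, map_mul, map_pow, map_zero, map_one, hff, it53, it60, it63, it65, it69, it70, it71]) <;> linear_combination (0 : K) * h2
      · (try simp only [map_add, map_mul, map_pow, map_zero, map_one, hff, it53, it60, it63, it65, it69, it70, it71]) <;> linear_combination (0 : K) * h2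
      · (try simp only [map_add, map_mul, map_pow, map_zero, map_one, hff, it53, it60, it63, it65, it69, it70, it71]) <;> linear_combination (0 : K) * h2
      · (try simp only [map_add, map_mul, map_pow, map_zero, map_one, hff, it53, it60, it63, it65, it69, it70, it71]) <;> linear_combination (0 : K) * h2
      · (try simp only [map_add, map_mul, map_pow, map_zero, map_one, hff, it53, it60, it63, it65, it69, it70, it71]) <;> linear_combination (0 : K) * h2
      · (try simp only [map_add, map_mul, map_pow, map_zero, map_one, hff, it53, it60, it63, it65, it69, it70, it71]) <;> linear_combination (0 : K) * h2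
      · (try simp only [map_add, map_mul, map_pow, map_zero, map_one, hff, it53, it60, it63, it65, it69, it70, it71]) <;> linear_combination (0 : K) * h2

theorem W53_1 {l52 l55 l66 t51 t60 t63 t65 t69 t70 t71 : K} (d : Dt f) (hp51 : t51 ≠ 0) (hm : E f 0 0 0 0 0 0 0 0 0 0 0 0 (t51) (l52) 0 0 (l55) (t60) (t63) (t65) (l66) (t69) (t70) (t71) ∈ (sc f).G1) (hs : E f 0 0 0 0 0 0 0 0 0 0 0 0 (t51) (l52) 0 0 (l55) (t60) (t63) (t65) (l66) (t69) (t70) (t71) * E f 0 0 0 0 0 0 0 0 0 0 0 0 (t51) (l52) 0 0 (l55) (t60) (t63) (t65) (l66) (t69) (t70) (t71) = 1) : Res f (E f 0 0 0 0 0 0 0 0 0 0 0 0 (t51) (l52) 0 0 (l55) (t60) (t63) (t65) (l66) (t69) (t70) (t71)) := by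
  exact C51 d hp51 hm hs

theorem W53 {l54 l55 l66 t53 t60 t63 t65 t69 t70 t71 : K} (d : Dt f) (hp53 : t53 ≠ 0) (hm : E f 0 0 0 0 0 0 0 0 0 0 0 0 0 0 (t53) (l54) (l55) (t60) (t63) (t65) (l66) (t69) (t70) (t71) ∈ (sc f).G1) (hs : E f 0 0 0 0 0 0 0 0 0 0 0 0 0 0 (t53) (l54) (l55) (t60) (t63) (t65) (l66) (t69) (t70) (t71) * E f 0 0 0 0 0 0 0 0 0 0 0 0 0 0 (t53) (l54) (l55) (t60) (t63) (t65) (l66) (t69) (t70) (t71) = 1) : Res f (E f 0 0 0 0 0 0 0 0 0 0 0 0 0 0 (t53) (l54) (l55) (t60) (t63) (t65) (l66) (t69) (t70) (t71)) := by
  obtain ⟨it39, it44, it46, it47, it51, it53, it60, it63, it65, it69, it70, it71⟩ := inv_of_mem d hm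
  have c : Cj f (E f 0 0 0 0 0 0 0 0 0 0 0 0 0 0 (t53) (l54) (l55) (t60) (t63) (t65) (l66) (t69) (t70) (t71)) (E f 0 0 0 0 0 0 0 0 0 0 0 0 (t53) (l54) 0 0 (l55) (t60) (t65) (t63) (l66) (t70) (t69) (t71)) := cjN f (nR_mem f [1]) (nE_W53 d.hff it53 it60 it63 it65 it69 it70 it71)
  exact Res.of_cj f c (W53_1 d hp53 (c.mem f hm) (c.sq f hs))

theorem C53 {l36 l37 l38 l40 l41 l45 l48 l49 l52 l54 l55 l66 t39 t44 t46 t47 t51 t53 t60 t63 t65 t69 t70 t71 : K} (d : Dt f) (hp53 : t53 ≠ 0) (hm : E f (l36) (l37) (l38) (t39) (l40) (l41) (t44) (l45) (t46) (t47) (l48) (l49) (t51) (l52) (t53) (l54) (l55) (t60) (t63) (t65) (l66) (t69) (t70) (t71) ∈ (sc f).G1) (hs : E f (l36) (l37) (l38) (t39) (l40) (l41) (t44) (l45) (t46) (t47) (l48) (l49) (t51) (l52) (t53) (l54) (l55) (t60) (t63) (t65) (l66) (t69) (t70) (t71) * E f (l36) (l37) (l38) (t39) (l40) (l41) (t44) (l45) (t46) (t47) (l48) (l49) (t51) (l52) (t53) (l54) (l55) (t60) (t63) (t65) (l66) (t69) (t70) (t71) = 1) : Res f (E f (l36) (l37) (l38) (t39) (l40) (l41) (t44) (l45) (t46) (t47) (l48) (l49) (t51) (l52) (t53) (l54)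 (l55) (t60) (t63) (t65) (l66) (t69) (t70) (t71)) := by
  by_cases h46 : t46 = 0
  swap
  · exact C46 d h46 hm hs
  subst h46
  by_cases h39 : t39 = 0
  swap
  · exact C39 d h39 hm hs
  subst h39
  by_cases h37 : l37 = 0
  swap
  · exact C37 d h37 hm hs
  subst h37
  by_cases h36 : l36 = 0
  swap
  · exact C36 d h36 hm hs
  subst h36
  by_cases h38 : l38 = 0
  swap
  · exact C38 d h38 hm hs
  subst h38
  by_cases h40 : l40 = 0
  swap
  · exact C40 d h40 hm hs
  subst h40
  by_cases h47 : t47 = 0
  swap
  · exact C47 d h47 hm hs
  subst h47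
  by_cases h41 : l41 = 0
  swap
  · exact C41 d h41 hm hs
  subst h41
  by_cases h44 : t44 = 0
  swap
  · exact C44 d h44 hm hs
  subst h44
  by_cases h48 : l48 = 0
  swap
  · exact C48 d h48 hm hs
  subst h48
  by_cases h45 : l45 = 0
  swap
  · exact C45 d h45 hm hs
  subst h45
  by_cases h49 : l49 = 0
  swap
  · exact C49 d h49 hm hs
  subst h49
  by_cases h51 : t51 = 0
  swap
  · exact C51 d h51 hm hs
  subst h51
  by_cases h52 : l52 = 0
  swap
  · exact C52 d h52 hm hs
  subst h52
  exact W53 d hp53 hm hs

theorem nE_W60 {l54 l55 l66 t60 t63 t65 t69 t70 t71 : K} (hff : ∀ t, f (f t) = t) (it60 : f t60 = t60) (it63 : f t63 = t63) (it65 : f t65 = t65) (it69 : f t69 = t69) (it70 : f t70 = t70) (it71 : f t71 = t71) :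
    nR [3] * E f 0 0 0 0 0 0 0 0 0 0 0 0 0 0 0 (l54) (l55) (t60) (t63) (t65) (l66) (t69) (t70) (t71) * (nR [3])⁻¹ = E f 0 0 0 0 0 0 (t60) 0 0 0 0 0 (t63) 0 (t65) ((f l54)) (l66) 0 0 0 (l55) (t69) (t70) (t71) := by
  have h2 : (2 : K) = 0 := CharTwo.two_eq_zero
  have c54 := fun t : K => nR_at (l := [3]) (s := 54) (m := 64) (by decide +kernel) t
  have c55 := fun t : K => nR_at (l := [3]) (s := 55) (m := 66) (by decide +kernel) t
  have c60 := fun t : K => nR_at (l := [3]) (s := 60) (m := 44) (by decide +kernel) t
  have c63 := fun t : K => nR_at (l := [3]) (s := 63) (m := 51) (by decide +kernel) t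
  have c64 := fun t : K => nR_at (l := [3]) (s := 64) (m := 54) (by decide +kernel) t
  have c65 := fun t : K => nR_at (l := [3]) (s := 65) (m := 53) (by decide +kernel) t
  have c66 := fun t : K => nR_at (l := [3]) (s := 66) (m := 55) (by decide +kernel) t
  have c67 := fun t : K => nR_at (l := [3]) (s := 67) (m := 68) (by decide +kernel) t
  have c68 := fun t : K => nR_at (l := [3]) (s := 68) (m := 67) (by decide +kernel) t
  have c69 := fun t : K => nR_at (l := [3]) (s := 69) (m := 69) (by decide +kernel) t
  have c70 := fun t : K => nR_at (l := [3]) (s := 70) (m := 70) (by decide +kernel) t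
  have c71 := fun t : K => nR_at (l := [3]) (s := 71) (m := 71) (by decide +kernel) t
  unfold E
  rw [conj_W]
  simp only [map_zero, zero_mul, mul_zero, add_zero, zero_add, conj_x0, one_mul, c54, c55, c60, c63, c64, c65, c66, c67, c68, c69, c70, c71]
  rw [← W_zero (K := K)]
  simp only [xW_44, xW_51, xW_53, xW_54, xW_55, xW_64, xW_66, xW_67, xW_68, xW_69, xW_70, xW_71, zero_mul, mul_zero, add_zero, zero_add]
  first
    | done
    | apply W_congr
      · (try simp only [map_add, map_mul, map_pow, map_zero, map_one, hff, it60, it63, it65, it69, it70, it71]) <;> linear_combination (0 : K) * h2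
      · (try simp only [map_add, map_mul, map_pow, map_zero, map_one, hff, it60, it63, it65, it69, it70, it71]) <;> linear_combination (0 : K) * h2
      · (try simp only [map_add, map_mul, map_pow, map_zero, map_one, hff, it60, it63, it65, it69, it70, it71]) <;> linear_combination (0 : K) * h2
      · (try simp only [map_add, map_mul, map_pow, map_zero, map_one, hff, it60, it63, it65, it69, it70, it71]) <;> linear_combination (0 : K) * h2
      · (try simp only [map_add, map_mul, map_pow, map_zero, map_one, hff, it60, it63, it65, it69, it70, it71]) <;> linear_combination (0 : K) * h2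
      · (try simp only [map_add, map_mul, map_pow, map_zero, map_one, hff, it60, it63, it65, it69, it70, it71]) <;> linear_combination (0 : K) * h2
      · (try simp only [map_add, map_mul, map_pow, map_zero, map_one, hff, it60, it63, it65, it69, it70, it71]) <;> linear_combination (0 : K) * h2
      · (try simp only [map_add, map_mul, map_pow, map_zero, map_one, hff, it60, it63, it65, it69, it70, it71]) <;> linear_combination (0 : K) * h2
      · (try simp only [map_add, map_mul, map_pow, map_zero, map_one, hff, it60, it63, it65, it69, it70, it71]) <;> linear_combination (0 : K) * h2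
      · (try simp only [map_add, map_mul, map_pow, map_zero, map_one, hff, it60, it63, it65, it69, it70, it71]) <;> linear_combination (0 : K) * h2
      · (try simp only [map_add, map_mul, map_pow, map_zero, map_one, hff, it60, it63, it65, it69, it70, it71]) <;> linear_combination (0 : K) * h2
      · (try simp only [map_add, map_mul, map_pow, map_zero, map_one, hff, it60, it63, it65, it69, it70, it71]) <;> linear_combination (0 : K) * h2
      · (try simp only [map_add, map_mul, map_pow, map_zero, map_one, hff, it60, it63, it65, it69, it70, it71]) <;> linear_combination (0 : K) * h2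
      · (try simp only [map_add, map_mul, map_pow, map_zero, map_one, hff, it60, it63, it65, it69, it70, it71]) <;> linear_combination (0 : K) * h2
      · (try simp only [map_add, map_mul, map_pow, map_zero, map_one, hff, it60, it63, it65, it69, it70, it71]) <;> linear_combination (0 : K) * h2
      · (try simp only [map_add, map_mul, map_pow, map_zero, map_one, hff, it60, it63, it65, it69, it70, it71]) <;> linear_combination (0 : K) * h2
      · (try simp only [map_add, map_mul, map_pow, map_zero, map_one, hff, it60, it63, it65, it69, it70, it71]) <;> linear_combination (0 : K) * h2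
      · (try simp only [map_add, map_mul, map_pow, map_zero, map_one, hff, it60, it63, it65, it69, it70, it71]) <;> linear_combination (0 : K) * h2
      · (try simp only [map_add, map_mul, map_pow, map_zero, map_one, hff, it60, it63, it65, it69, it70, it71]) <;> linear_combination (0 : K) * h2
      · (try simp only [map_add, map_mul, map_pow, map_zero, map_one, hff, it60, it63, it65, it69, it70, it71]) <;> linear_combination (0 : K) * h2
      · (try simp only [map_add, map_mul, map_pow, map_zero, map_one, hff, it60, it63, it65, it69, it70, it71]) <;> linear_combination (0 : K) * h2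
      · (try simp only [map_add, map_mul, map_pow, map_zero, map_one, hff, it60, it63, it65, it69, it70, it71]) <;> linear_combination (0 : K) * h2
      · (try simp only [map_add, map_mul, map_pow, map_zero, map_one, hff, it60, it63, it65, it69, it70, it71]) <;> linear_combination (0 : K) * h2
      · (try simp only [map_add, map_mul, map_pow, map_zero, map_one, hff, it60, it63, it65, it69, it70, it71]) <;> linear_combination (0 : K) * h2
      · (try simp only [map_add, map_mul, map_pow, map_zero, map_one, hff, it60, it63, it65, it69, it70, it71]) <;> linear_combination (0 : K) * h2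
      · (try simp only [map_add, map_mul, map_pow, map_zero, map_one, hff, it60, it63, it65, it69, it70, it71]) <;> linear_combination (0 : K) * h2
      · (try simp only [map_add, map_mul, map_pow, map_zero, map_one, hff, it60, it63, it65, it69, it70, it71]) <;> linear_combination (0 : K) * h2
      · (try simp only [map_add, map_mul, map_pow, map_zero, map_one, hff, it60, it63, it65, it69, it70, it71]) <;> linear_combination (0 : K) * h2
      · (try simp only [map_add, map_mul, map_pow, map_zero, map_one, hff, it60, it63, it65, it69, it70, it71]) <;> linear_combination (0 : K) * h2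
      · (try simp only [map_add, map_mul, map_pow, map_zero, map_one, hff, it60, it63, it65, it69, it70, it71]) <;> linear_combination (0 : K) * h2
      · (try simp only [map_add, map_mul, map_pow, map_zero, map_one, hff, it60, it63, it65, it69, it70, it71]) <;> linear_combination (0 : K) * h2
      · (try simp only [map_add, map_mul, map_pow, map_zero, map_one, hff, it60, it63, it65, it69, it70, it71]) <;> linear_combination (0 : K) * h2
      · (try simp only [map_add, map_mul, map_pow, map_zero, map_one, hff, it60, it63, it65, it69, it70, it71]) <;> linear_combination (0 : K) * h2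
      · (try simp only [map_add, map_mul, map_pow, map_zero, map_one, hff, it60, it63, it65, it69, it70, it71]) <;> linear_combination (0 : K) * h2
      · (try simp only [map_add, map_mul, map_pow, map_zero, map_one, hff, it60, it63, it65, it69, it70, it71]) <;> linear_combination (0 : K) * h2
      · (try simp only [map_add, map_mul, map_pow, map_zero, map_one, hff, it60, it63, it65, it69, it70, it71]) <;> linear_combination (0 : K) * h2

theorem W60_1 {l54 l55 l66 t44 t51 t53 t69 t70 t71 : K} (d : Dt f) (hp44 : t44 ≠ 0) (hm : E f 0 0 0 0 0 0 (t44) 0 0 0 0 0 (t51) 0 (t53) (l54) (l55) 0 0 0 (l66) (t69) (t70) (t71) ∈ (sc f).G1) (hs : E f 0 0 0 0 0 0 (t44) 0 0 0 0 0 (t51) 0 (t53) (l54) (l55) 0 0 0 (l66) (t69) (t70) (t71) * E f 0 0 0 0 0 0 (t44) 0 0 0 0 0 (t51) 0 (t53) (l54) (l55) 0 0 0 (l66) (t69) (t70) (t71) = 1) : Res f (E f 0 0 0 0 0 0 (t44) 0 0 0 0 0 (t51) 0 (t53) (l54) (l55) 0 0 0 (l66) (t69) (t70) (t71)) := by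
  exact C44 d hp44 hm hs

theorem W60 {l54 l55 l66 t60 t63 t65 t69 t70 t71 : K} (d : Dt f) (hp60 : t60 ≠ 0) (hm : E f 0 0 0 0 0 0 0 0 0 0 0 0 0 0 0 (l54) (l55) (t60) (t63) (t65) (l66) (t69) (t70) (t71) ∈ (sc f).G1) (hs : E f 0 0 0 0 0 0 0 0 0 0 0 0 0 0 0 (l54) (l55) (t60) (t63) (t65) (l66) (t69) (t70) (t71) * E f 0 0 0 0 0 0 0 0 0 0 0 0 0 0 0 (l54) (l55) (t60) (t63) (t65) (l66) (t69) (t70) (t71) = 1) : Res f (E f 0 0 0 0 0 0 0 0 0 0 0 0 0 0 0 (l54) (l55) (t60) (t63) (t65) (l66) (t69) (t70) (t71)) := by
  obtain ⟨it39, it44, it46, it47, it51, it53, it60, it63, it65, it69, it70, it71⟩ := inv_of_mem d hm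
  have c : Cj f (E f 0 0 0 0 0 0 0 0 0 0 0 0 0 0 0 (l54) (l55) (t60) (t63) (t65) (l66) (t69) (t70) (t71)) (E f 0 0 0 0 0 0 (t60) 0 0 0 0 0 (t63) 0 (t65) ((f l54)) (l66) 0 0 0 (l55) (t69) (t70) (t71)) := cjN f (nR_mem f [3]) (nE_W60 d.hff it60 it63 it65 it69 it70 it71)
  exact Res.of_cj f c (W60_1 d hp60 (c.mem f hm) (c.sq f hs))

theorem C60 {l36 l37 l38 l40 l41 l45 l48 l49 l52 l54 l55 l66 t39 t44 t46 t47 t51 t53 t60 t63 t65 t69 t70 t71 : K} (d : Dt f) (hp60 : t60 ≠ 0) (hm : E f (l36) (l37) (l38) (t39) (l40) (l41) (t44) (l45) (t46) (t47) (l48) (l49) (t51) (l52) (t53) (l54) (l55) (t60) (t63) (t65) (l66) (t69) (t70) (t71) ∈ (sc f).G1) (hs : E f (l36) (l37) (l38) (t39) (l40) (l41) (t44) (l45) (t46) (t47) (l48) (l49) (t51) (l52) (t53) (l54) (l55) (t60) (t63) (t65) (l66) (t69) (t70) (t71) * E f (l36) (l37) (l38) (t39) (l40) (l41) (t44) (l45) (t46) (t47) (l48) (l49) (t51) (l52) (t53) (l54) (l55) (t60) (t63) (t65) (l66) (t69) (t70) (t71) = 1) : Res f (E f (l36) (l37) (l38) (t39) (l40) (l41) (t44) (l45) (t46) (t47) (l48) (l49) (t51) (l52) (t53) (l54) (l55) (t60)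 (t63) (t65) (l66) (t69) (t70) (t71)) := by
  by_cases h46 : t46 = 0
  swap
  · exact C46 d h46 hm hs
  subst h46
  by_cases h39 : t39 = 0
  swap
  · exact C39 d h39 hm hs
  subst h39
  by_cases h37 : l37 = 0
  swap
  · exact C37 d h37 hm hs
  subst h37
  by_cases h36 : l36 = 0
  swap
  · exact C36 d h36 hm hs
  subst h36
  by_cases h38 : l38 = 0
  swap
  · exact C38 d h38 hm hs
  subst h38
  by_cases h40 : l40 = 0
  swap
  · exact C40 d h40 hm hs
  subst h40
  by_cases h47 : t47 = 0
  swap
  · exact C47 d h47 hm hs
  subst h47
  by_cases h41 : l41 = 0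
  swap
  · exact C41 d h41 hm hs
  subst h41
  by_cases h44 : t44 = 0
  swap
  · exact C44 d h44 hm hs
  subst h44
  by_cases h48 : l48 = 0
  swap
  · exact C48 d h48 hm hs
  subst h48
  by_cases h45 : l45 = 0
  swap
  · exact C45 d h45 hm hs
  subst h45
  by_cases h49 : l49 = 0
  swap
  · exact C49 d h49 hm hs
  subst h49
  by_cases h51 : t51 = 0
  swap
  · exact C51 d h51 hm hs
  subst h51
  by_cases h52 : l52 = 0
  swap
  · exact C52 d h52 hm hs
  subst h52
  by_cases h53 : t53 = 0
  swap
  · exact C53 d h53 hm hs
  subst h53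
  exact W60 d hp60 hm hs

theorem nE_W54 {l54 l55 l66 t63 t65 t69 t70 t71 : K} (hff : ∀ t, f (f t) = t) (it63 : f t63 = t63) (it65 : f t65 = t65) (it69 : f t69 = t69) (it70 : f t70 = t70) (it71 : f t71 = t71) :
    nR [1] * E f 0 0 0 0 0 0 0 0 0 0 0 0 0 0 0 (l54) (l55) 0 (t63) (t65) (l66) (t69) (t70) (t71) * (nR [1])⁻¹ = E f 0 0 0 0 0 0 0 0 0 0 0 0 0 (l54) 0 0 (l55) 0 (t65) (t63) (l66) (t70) (t69) (t71) := by
  have h2 : (2 : K) = 0 := CharTwo.two_eq_zero
  have c54 := fun t : K => nR_at (l := [1]) (s := 54) (m := 52) (by decide +kernel) t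
  have c55 := fun t : K => nR_at (l := [1]) (s := 55) (m := 55) (by decide +kernel) t
  have c63 := fun t : K => nR_at (l := [1]) (s := 63) (m := 65) (by decide +kernel) t
  have c64 := fun t : K => nR_at (l := [1]) (s := 64) (m := 62) (by decide +kernel) t
  have c65 := fun t : K => nR_at (l := [1]) (s := 65) (m := 63) (by decide +kernel) t
  have c66 := fun t : K => nR_at (l := [1]) (s := 66) (m := 66) (by decide +kernel) t
  have c67 := fun t : K => nR_at (l := [1]) (s := 67) (m := 67) (by decide +kernel) t
  have c68 := fun t : K => nR_at (l := [1]) (s := 68) (m := 68) (by decide +kernel) t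
  have c69 := fun t : K => nR_at (l := [1]) (s := 69) (m := 70) (by decide +kernel) t
  have c70 := fun t : K => nR_at (l := [1]) (s := 70) (m := 69) (by decide +kernel) t
  have c71 := fun t : K => nR_at (l := [1]) (s := 71) (m := 71) (by decide +kernel) t
  unfold E
  rw [conj_W]
  simp only [map_zero, zero_mul, mul_zero, add_zero, zero_add, conj_x0, one_mul, c54, c55, c63, c64, c65, c66, c67, c68, c69, c70, c71]
  rw [← W_zero (K := K)]
  simp only [xW_52, xW_55, xW_62, xW_63, xW_65, xW_66, xW_67, xW_68, xW_69, xW_70, xW_71, zero_mul, mul_zero, add_zero, zero_add]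
  first
    | done
    | apply W_congr
      · (try simp only [map_add, map_mul, map_pow, map_zero, map_one, hff, it63, it65, it69, it70, it71]) <;> linear_combination (0 : K) * h2
      · (try simp only [map_add, map_mul, map_pow, map_zero, map_one, hff, it63, it65, it69, it70, it71]) <;> linear_combination (0 : K) * h2
      · (try simp only [map_add, map_mul, map_pow, map_zero, map_one, hff, it63, it65, it69, it70, it71]) <;> linear_combination (0 : K) * h2
      · (try simp only [map_add, map_mul, map_pow, map_zero, map_one, hff, it63, it65, it69, it70, it71]) <;> linear_combination (0 : K) * h2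
      · (try simp only [map_add, map_mul, map_pow, map_zero, map_one, hff, it63, it65, it69, it70, it71]) <;> linear_combination (0 : K) * h2
      · (try simp only [map_add, map_mul, map_pow, map_zero, map_one, hff, it63, it65, it69, it70, it71]) <;> linear_combination (0 : K) * h2
      · (try simp only [map_add, map_mul, map_pow, map_zero, map_one, hff, it63, it65, it69, it70, it71]) <;> linear_combination (0 : K) * h2
      · (try simp only [map_add, map_mul, map_pow, map_zero, map_one, hff, it63, it65, it69, it70, it71]) <;> linear_combination (0 : K) * h2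
      · (try simp only [map_add, map_mul, map_pow, map_zero, map_one, hff, it63, it65, it69, it70, it71]) <;> linear_combination (0 : K) * h2
      · (try simp only [map_add, map_mul, map_pow, map_zero, map_one, hff, it63, it65, it69, it70, it71]) <;> linear_combination (0 : K) * h2
      · (try simp only [map_add, map_mul, map_pow, map_zero, map_one, hff, it63, it65, it69, it70, it71]) <;> linear_combination (0 : K) * h2
      · (try simp only [map_add, map_mul, map_pow, map_zero, map_one, hff, it63, it65, it69, it70, it71]) <;> linear_combination (0 : K) * h2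
      · (try simp only [map_add, map_mul, map_pow, map_zero, map_one, hff, it63, it65, it69, it70, it71]) <;> linear_combination (0 : K) * h2
      · (try simp only [map_add, map_mul, map_pow, map_zero, map_one, hff, it63, it65, it69, it70, it71]) <;> linear_combination (0 : K) * h2
      · (try simp only [map_add, map_mul, map_pow, map_zero, map_one, hff, it63, it65, it69, it70, it71]) <;> linear_combination (0 : K) * h2
      · (try simp only [map_add, map_mul, map_pow, map_zero, map_one, hff, it63, it65, it69, it70, it71]) <;> linear_combination (0 : K) * h2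
      · (try simp only [map_add, map_mul, map_pow, map_zero, map_one, hff, it63, it65, it69, it70, it71]) <;> linear_combination (0 : K) * h2
      · (try simp only [map_add, map_mul, map_pow, map_zero, map_one, hff, it63, it65, it69, it70, it71]) <;> linear_combination (0 : K) * h2
      · (try simp only [map_add, map_mul, map_pow, map_zero, map_one, hff, it63, it65, it69, it70, it71]) <;> linear_combination (0 : K) * h2
      · (try simp only [map_add, map_mul, map_pow, map_zero, map_one, hff, it63, it65, it69, it70, it71]) <;> linear_combination (0 : K) * h2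
      · (try simp only [map_add, map_mul, map_pow, map_zero, map_one, hff, it63, it65, it69, it70, it71]) <;> linear_combination (0 : K) * h2
      · (try simp only [map_add, map_mul, map_pow, map_zero, map_one, hff, it63, it65, it69, it70, it71]) <;> linear_combination (0 : K) * h2
      · (try simp only [map_add, map_mul, map_pow, map_zero, map_one, hff, it63, it65, it69, it70, it71]) <;> linear_combination (0 : K) * h2
      · (try simp only [map_add, map_mul, map_pow, map_zero, map_one, hff, it63, it65, it69, it70, it71]) <;> linear_combination (0 : K) * h2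
      · (try simp only [map_add, map_mul, map_pow, map_zero, map_one, hff, it63, it65, it69, it70, it71]) <;> linear_combination (0 : K) * h2
      · (try simp only [map_add, map_mul, map_pow, map_zero, map_one, hff, it63, it65, it69, it70, it71]) <;> linear_combination (0 : K) * h2
      · (try simp only [map_add, map_mul, map_pow, map_zero, map_one, hff, it63, it65, it69, it70, it71]) <;> linear_combination (0 : K) * h2
      · (try simp only [map_add, map_mul, map_pow, map_zero, map_one, hff, it63, it65, it69, it70, it71]) <;> linear_combination (0 : K) * h2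
      · (try simp only [map_add, map_mul, map_pow, map_zero, map_one, hff, it63, it65, it69, it70, it71]) <;> linear_combination (0 : K) * h2
      · (try simp only [map_add, map_mul, map_pow, map_zero, map_one, hff, it63, it65, it69, it70, it71]) <;> linear_combination (0 : K) * h2
      · (try simp only [map_add, map_mul, map_pow, map_zero, map_one, hff, it63, it65, it69, it70, it71]) <;> linear_combination (0 : K) * h2
      · (try simp only [map_add, map_mul, map_pow, map_zero, map_one, hff, it63, it65, it69, it70, it71]) <;> linear_combination (0 : K) * h2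
      · (try simp only [map_add, map_mul, map_pow, map_zero, map_one, hff, it63, it65, it69, it70, it71]) <;> linear_combination (0 : K) * h2
      · (try simp only [map_add, map_mul, map_pow, map_zero, map_one, hff, it63, it65, it69, it70, it71]) <;> linear_combination (0 : K) * h2
      · (try simp only [map_add, map_mul, map_pow, map_zero, map_one, hff, it63, it65, it69, it70, it71]) <;> linear_combination (0 : K) * h2
      · (try simp only [map_add, map_mul, map_pow, map_zero, map_one, hff, it63, it65, it69, it70, it71]) <;> linear_combination (0 : K) * h2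

theorem W54_1 {l52 l55 l66 t63 t65 t69 t70 t71 : K} (d : Dt f) (hp52 : l52 ≠ 0) (hm : E f 0 0 0 0 0 0 0 0 0 0 0 0 0 (l52) 0 0 (l55) 0 (t63) (t65) (l66) (t69) (t70) (t71) ∈ (sc f).G1) (hs : E f 0 0 0 0 0 0 0 0 0 0 0 0 0 (l52) 0 0 (l55) 0 (t63) (t65) (l66) (t69) (t70) (t71) * E f 0 0 0 0 0 0 0 0 0 0 0 0 0 (l52) 0 0 (l55) 0 (t63) (t65) (l66) (t69) (t70) (t71) = 1) : Res f (E f 0 0 0 0 0 0 0 0 0 0 0 0 0 (l52) 0 0 (l55) 0 (t63) (t65) (l66) (t69) (t70) (t71)) := by
  exact C52 d hp52 hm hs

theorem W54 {l54 l55 l66 t63 t65 t69 t70 t71 : K} (d : Dt f) (hp54 : l54 ≠ 0) (hm : E f 0 0 0 0 0 0 0 0 0 0 0 0 0 0 0 (l54) (l55) 0 (t63) (t65) (l66) (t69) (t70) (t71) ∈ (sc f).G1) (hs : E f 0 0 0 0 0 0 0 0 0 0 0 0 0 0 0 (l54) (l55) 0 (t63) (t65) (l66) (t69) (t70) (t71) * E f 0 0 0 0 0 0 0 0 0 0 0 0 0 0 0 (l54) (l55) 0 (t63) (t65) (l66) (t69) (t70) (t71) = 1) : Res f (E f 0 0 0 0 0 0 0 0 0 0 0 0 0 0 0 (l54) (l55) 0 (t63) (t65) (l66) (t69) (t70) (t71)) := by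
  obtain ⟨it39, it44, it46, it47, it51, it53, it60, it63, it65, it69, it70, it71⟩ := inv_of_mem d hm
  have c : Cj f (E f 0 0 0 0 0 0 0 0 0 0 0 0 0 0 0 (l54) (l55) 0 (t63) (t65) (l66) (t69) (t70) (t71)) (E f 0 0 0 0 0 0 0 0 0 0 0 0 0 (l54) 0 0 (l55) 0 (t65) (t63) (l66) (t70) (t69) (t71)) := cjN f (nR_mem f [1]) (nE_W54 d.hff it63 it65 it69 it70 it71)
  exact Res.of_cj f c (W54_1 d hp54 (c.mem f hm) (c.sq f hs))

theorem C54 {l36 l37 l38 l40 l41 l45 l48 l49 l52 l54 l55 l66 t39 t44 t46 t47 t51 t53 t60 t63 t65 t69 t70 t71 : K} (d : Dt f) (hp54 : l54 ≠ 0) (hm : E f (l36) (l37) (l38) (t39) (l40) (l41) (t44) (l45) (t46) (t47) (l48) (l49) (t51) (l52) (t53) (l54) (l55) (t60) (t63) (t65) (l66) (t69) (t70) (t71) ∈ (sc f).G1) (hs : E f (l36) (l37) (l38) (t39) (l40) (l41) (t44) (l45) (t46) (t47) (l48) (l49) (t51) (l52) (t53) (l54) (l55) (t60) (t63) (t65) (l66) (t69) (t70) (t71) * E f (l36) (l37) (l38) (t39) (l40) (l41) (t44) (l45) (t46) (t47) (l48) (l49) (t51) (l52) (t53) (l54) (l55) (t60) (t63) (t65) (l66) (t69) (t70) (t71) = 1) : Res f (E f (l36) (l37) (l38) (t39)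 (l40) (l41) (t44) (l45) (t46) (t47) (l48) (l49) (t51) (l52) (t53) (l54) (l55) (t60) (t63) (t65) (l66) (t69) (t70) (t71)) := by
  by_cases h46 : t46 = 0
  swap
  · exact C46 d h46 hm hs
  subst h46
  by_cases h39 : t39 = 0
  swap
  · exact C39 d h39 hm hs
  subst h39
  by_cases h37 : l37 = 0
  swap
  · exact C37 d h37 hm hs
  subst h37
  by_cases h36 : l36 = 0
  swap
  · exact C36 d h36 hm hs
  subst h36
  by_cases h38 : l38 = 0
  swap
  · exact C38 d h38 hm hs
  subst h38
  by_cases h40 : l40 = 0
  swap
  · exact C40 d h40 hm hs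
  subst h40
  by_cases h47 : t47 = 0
  swap
  · exact C47 d h47 hm hs
  subst h47
  by_cases h41 : l41 = 0
  swap
  · exact C41 d h41 hm hs
  subst h41
  by_cases h44 : t44 = 0
  swap
  · exact C44 d h44 hm hs
  subst h44
  by_cases h48 : l48 = 0
  swap
  · exact C48 d h48 hm hs
  subst h48
  by_cases h45 : l45 = 0
  swap
  · exact C45 d h45 hm hs
  subst h45
  by_cases h49 : l49 = 0
  swap
  · exact C49 d h49 hm hs
  subst h49
  by_cases h51 : t51 = 0
  swap
  · exact C51 d h51 hm hs
  subst h51
  by_cases h52 : l52 = 0
  swap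
  · exact C52 d h52 hm hs
  subst h52
  by_cases h53 : t53 = 0
  swap
  · exact C53 d h53 hm hs
  subst h53
  by_cases h60 : t60 = 0
  swap
  · exact C60 d h60 hm hs
  subst h60
  exact W54 d hp54 hm hs

theorem nE_W63 {l55 l66 t63 t65 t69 t70 t71 : K} (hff : ∀ t, f (f t) = t) (it63 : f t63 = t63) (it65 : f t65 = t65) (it69 : f t69 = t69) (it70 : f t70 = t70) (it71 : f t71 = t71) :
    nR [0] * E f 0 0 0 0 0 0 0 0 0 0 0 0 0 0 0 0 (l55) 0 (t63) (t65) (l66) (t69) (t70) (t71) * (nR [0])⁻¹ = E f 0 0 0 0 0 0 0 0 0 0 0 0 0 0 0 0 (l55) (t63) 0 (t65) (l66) (t69) (t71) (t70) := by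
  have h2 : (2 : K) = 0 := CharTwo.two_eq_zero
  have c55 := fun t : K => nR_at (l := [0]) (s := 55) (m := 55) (by decide +kernel) t
  have c63 := fun t : K => nR_at (l := [0]) (s := 63) (m := 60) (by decide +kernel) t
  have c65 := fun t : K => nR_at (l := [0]) (s := 65) (m := 65) (by decide +kernel) t
  have c66 := fun t : K => nR_at (l := [0]) (s := 66) (m := 66) (by decide +kernel) t
  have c67 := fun t : K => nR_at (l := [0]) (s := 67) (m := 67) (by decide +kernel) t
  have c68 := fun t : K => nR_at (l := [0]) (s := 68) (m := 68) (by decide +kernel) t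
  have c69 := fun t : K => nR_at (l := [0]) (s := 69) (m := 69) (by decide +kernel) t
  have c70 := fun t : K => nR_at (l := [0]) (s := 70) (m := 71) (by decide +kernel) t
  have c71 := fun t : K => nR_at (l := [0]) (s := 71) (m := 70) (by decide +kernel) t
  unfold E
  rw [conj_W]
  simp only [map_zero, zero_mul, mul_zero, add_zero, zero_add, conj_x0, one_mul, c55, c63, c65, c66, c67, c68, c69, c70, c71]
  rw [← W_zero (K := K)]
  simp only [xW_55, xW_60, xW_65, xW_66, xW_67, xW_68, xW_69, xW_70, xW_71, zero_mul, mul_zero, add_zero, zero_add]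
  first
    | done
    | apply W_congr
      · (try simp only [map_add, map_mul, map_pow, map_zero, map_one, hff, it63, it65, it69, it70, it71]) <;> linear_combination (0 : K) * h2
      · (try simp only [map_add, map_mul, map_pow, map_zero, map_one, hff, it63, it65, it69, it70, it71]) <;> linear_combination (0 : K) * h2
      · (try simp only [map_add, map_mul, map_pow, map_zero, map_one, hff, it63, it65, it69, it70, it71]) <;> linear_combination (0 : K) * h2
      · (try simp only [map_add, map_mul, map_pow, map_zero, map_one, hff, it63, it65, it69, it70, it71]) <;> linear_combination (0 : K) * h2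
      · (try simp only [map_add, map_mul, map_pow, map_zero, map_one, hff, it63, it65, it69, it70, it71]) <;> linear_combination (0 : K) * h2
      · (try simp only [map_add, map_mul, map_pow, map_zero, map_one, hff, it63, it65, it69, it70, it71]) <;> linear_combination (0 : K) * h2
      · (try simp only [map_add, map_mul, map_pow, map_zero, map_one, hff, it63, it65, it69, it70, it71]) <;> linear_combination (0 : K) * h2
      · (try simp only [map_add, map_mul, map_pow, map_zero, map_one, hff, it63, it65, it69, it70, it71]) <;> linear_combination (0 : K) * h2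
      · (try simp only [map_add, map_mul, map_pow, map_zero, map_one, hff, it63, it65, it69, it70, it71]) <;> linear_combination (0 : K) * h2
      · (try simp only [map_add, map_mul, map_pow, map_zero, map_one, hff, it63, it65, it69, it70, it71]) <;> linear_combination (0 : K) * h2
      · (try simp only [map_add, map_mul, map_pow, map_zero, map_one, hff, it63, it65, it69, it70, it71]) <;> linear_combination (0 : K) * h2
      · (try simp only [map_add, map_mul, map_pow, map_zero, map_one, hff, it63, it65, it69, it70, it71]) <;> linear_combination (0 : K) * h2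
      · (try simp only [map_add, map_mul, map_pow, map_zero, map_one, hff, it63, it65, it69, it70, it71]) <;> linear_combination (0 : K) * h2
      · (try simp only [map_add, map_mul, map_pow, map_zero, map_one, hff, it63, it65, it69, it70, it71]) <;> linear_combination (0 : K) * h2
      · (try simp only [map_add, map_mul, map_pow, map_zero, map_one, hff, it63, it65, it69, it70, it71]) <;> linear_combination (0 : K) * h2
      · (try simp only [map_add, map_mul, map_pow, map_zero, map_one, hff, it63, it65, it69, it70, it71]) <;> linear_combination (0 : K) * h2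
      · (try simp only [map_add, map_mul, map_pow, map_zero, map_one, hff, it63, it65, it69, it70, it71]) <;> linear_combination (0 : K) * h2
      · (try simp only [map_add, map_mul, map_pow, map_zero, map_one, hff, it63, it65, it69, it70, it71]) <;> linear_combination (0 : K) * h2
      · (try simp only [map_add, map_mul, map_pow, map_zero, map_one, hff, it63, it65, it69, it70, it71]) <;> linear_combination (0 : K) * h2
      · (try simp only [map_add, map_mul, map_pow, map_zero, map_one, hff, it63, it65, it69, it70, it71]) <;> linear_combination (0 : K) * h2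
      · (try simp only [map_add, map_mul, map_pow, map_zero, map_one, hff, it63, it65, it69, it70, it71]) <;> linear_combination (0 : K) * h2
      · (try simp only [map_add, map_mul, map_pow, map_zero, map_one, hff, it63, it65, it69, it70, it71]) <;> linear_combination (0 : K) * h2
      · (try simp only [map_add, map_mul, map_pow, map_zero, map_one, hff, it63, it65, it69, it70, it71]) <;> linear_combination (0 : K) * h2
      · (try simp only [map_add, map_mul, map_pow, map_zero, map_one, hff, it63, it65, it69, it70, it71]) <;> linear_combination (0 : K) * h2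
      · (try simp only [map_add, map_mul, map_pow, map_zero, map_one, hff, it63, it65, it69, it70, it71]) <;> linear_combination (0 : K) * h2
      · (try simp only [map_add, map_mul, map_pow, map_zero, map_one, hff, it63, it65, it69, it70, it71]) <;> linear_combination (0 : K) * h2
      · (try simp only [map_add, map_mul, map_pow, map_zero, map_one, hff, it63, it65, it69, it70, it71]) <;> linear_combination (0 : K) * h2
      · (try simp only [map_add, map_mul, map_pow, map_zero, map_one, hff, it63, it65, it69, it70, it71]) <;> linear_combination (0 : K) * h2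
      · (try simp only [map_add, map_mul, map_pow, map_zero, map_one, hff, it63, it65, it69, it70, it71]) <;> linear_combination (0 : K) * h2
      · (try simp only [map_add, map_mul, map_pow, map_zero, map_one, hff, it63, it65, it69, it70, it71]) <;> linear_combination (0 : K) * h2
      · (try simp only [map_add, map_mul, map_pow, map_zero, map_one, hff, it63, it65, it69, it70, it71]) <;> linear_combination (0 : K) * h2
      · (try simp only [map_add, map_mul, map_pow, map_zero, map_one, hff, it63, it65, it69, it70, it71]) <;> linear_combination (0 : K) * h2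
      · (try simp only [map_add, map_mul, map_pow, map_zero, map_one, hff, it63, it65, it69, it70, it71]) <;> linear_combination (0 : K) * h2
      · (try simp only [map_add, map_mul, map_pow, map_zero, map_one, hff, it63, it65, it69, it70, it71]) <;> linear_combination (0 : K) * h2
      · (try simp only [map_add, map_mul, map_pow, map_zero, map_one, hff, it63, it65, it69, it70, it71]) <;> linear_combination (0 : K) * h2
      · (try simp only [map_add, map_mul, map_pow, map_zero, map_one, hff, it63, it65, it69, it70, it71]) <;> linear_combination (0 : K) * h2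

theorem W63_1 {l55 l66 t60 t65 t69 t70 t71 : K} (d : Dt f) (hp60 : t60 ≠ 0) (hm : E f 0 0 0 0 0 0 0 0 0 0 0 0 0 0 0 0 (l55) (t60) 0 (t65) (l66) (t69) (t70) (t71) ∈ (sc f).G1) (hs : E f 0 0 0 0 0 0 0 0 0 0 0 0 0 0 0 0 (l55) (t60) 0 (t65) (l66) (t69) (t70) (t71) * E f 0 0 0 0 0 0 0 0 0 0 0 0 0 0 0 0 (l55) (t60) 0 (t65) (l66) (t69) (t70) (t71) = 1) : Res f (E f 0 0 0 0 0 0 0 0 0 0 0 0 0 0 0 0 (l55) (t60) 0 (t65) (l66) (t69) (t70) (t71)) := by
  exact C60 d hp60 hm hs

theorem W63 {l55 l66 t63 t65 t69 t70 t71 : K} (d : Dt f) (hp63 : t63 ≠ 0) (hm : E f 0 0 0 0 0 0 0 0 0 0 0 0 0 0 0 0 (l55) 0 (t63) (t65) (l66) (t69) (t70) (t71) ∈ (sc f).G1) (hs : E f 0 0 0 0 0 0 0 0 0 0 0 0 0 0 0 0 (l55) 0 (t63) (t65) (l66) (t69) (t70) (t71) * E f 0 0 0 0 0 0 0 0 0 0 0 0 0 0 0 0 (l55) 0 (t63) (t65) (l66) (t69) (t70) (t71) = 1) : Res f (E f 0 0 0 0 0 0 0 0 0 0 0 0 0 0 0 0 (l55) 0 (t63) (t65) (l66) (t69) (t70) (t71)) := by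
  obtain ⟨it39, it44, it46, it47, it51, it53, it60, it63, it65, it69, it70, it71⟩ := inv_of_mem d hm
  have c : Cj f (E f 0 0 0 0 0 0 0 0 0 0 0 0 0 0 0 0 (l55) 0 (t63) (t65) (l66) (t69) (t70) (t71)) (E f 0 0 0 0 0 0 0 0 0 0 0 0 0 0 0 0 (l55) (t63) 0 (t65) (l66) (t69) (t71) (t70)) := cjN f (nR_mem f [0]) (nE_W63 d.hff it63 it65 it69 it70 it71)
  exact Res.of_cj f c (W63_1 d hp63 (c.mem f hm) (c.sq f hs))

theorem C63 {l36 l37 l38 l40 l41 l45 l48 l49 l52 l54 l55 l66 t39 t44 t46 t47 t51 t53 t60 t63 t65 t69 t70 t71 : K} (d : Dt f) (hp63 : t63 ≠ 0) (hm : E f (l36) (l37) (l38) (t39) (l40) (l41) (t44) (l45) (t46) (t47) (l48) (l49) (t51) (l52) (t53) (l54) (l55) (t60) (t63) (t65) (l66) (t69) (t70) (t71) ∈ (sc f).G1) (hs : E f (l36) (l37) (l38) (t39) (l40) (l41) (t44) (l45) (t46) (t47) (l48) (l49) (t51) (l52) (t53) (l54) (l55) (t60) (t63) (t65) (l66) (t69) (t70) (t71) * E f (l36) (l37) (l38) (t39) (l40) (l41) (t44) (l45) (t46) (t47) (l48) (l49) (t51) (l52) (t53) (l54) (l55) (t60) (t63) (t65) (l66) (t69) (t70) (t71) = 1) : Res f (E f (l36) (l37) (l38) (t39) (l40)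 (l41) (t44) (l45) (t46) (t47) (l48) (l49) (t51) (l52) (t53) (l54) (l55) (t60) (t63) (t65) (l66) (t69) (t70) (t71)) := by
  by_cases h46 : t46 = 0
  swap
  · exact C46 d h46 hm hs
  subst h46
  by_cases h39 : t39 = 0
  swap
  · exact C39 d h39 hm hs
  subst h39
  by_cases h37 : l37 = 0
  swap
  · exact C37 d h37 hm hs
  subst h37
  by_cases h36 : l36 = 0
  swap
  · exact C36 d h36 hm hs
  subst h36
  by_cases h38 : l38 = 0
  swap
  · exact C38 d h38 hm hs
  subst h38
  by_cases h40 : l40 = 0
  swap
  · exact C40 d h40 hm hs
  subst h40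
  by_cases h47 : t47 = 0
  swap
  · exact C47 d h47 hm hs
  subst h47
  by_cases h41 : l41 = 0
  swap
  · exact C41 d h41 hm hs
  subst h41
  by_cases h44 : t44 = 0
  swap
  · exact C44 d h44 hm hs
  subst h44
  by_cases h48 : l48 = 0
  swap
  · exact C48 d h48 hm hs
  subst h48
  by_cases h45 : l45 = 0
  swap
  · exact C45 d h45 hm hs
  subst h45
  by_cases h49 : l49 = 0
  swap
  · exact C49 d h49 hm hs
  subst h49
  by_cases h51 : t51 = 0
  swap
  · exact C51 d h51 hm hs
  subst h51
  by_cases h52 : l52 = 0
  swap
  · exact C52 d h52 hm hs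
  subst h52
  by_cases h53 : t53 = 0
  swap
  · exact C53 d h53 hm hs
  subst h53
  by_cases h60 : t60 = 0
  swap
  · exact C60 d h60 hm hs
  subst h60
  by_cases h54 : l54 = 0
  swap
  · exact C54 d h54 hm hs
  subst h54
  exact W63 d hp63 hm hs

end Cfsg.Agent.Lib.E6Inv50
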