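import Cfsg.Agent.Lib.E6Inv50N
import Cfsg.Agent.Lib.ChevInv.InvE6
import Cfsg.Agent.Lib.Chev.TwE6BN

/-!
# The involutions of `²E₆(q)`, `q` even: exactly three classes
-/

set_option autoImplicit false
set_option linter.unusedSectionVars false
set_option linter.unusedVariables false
set_option linter.unusedSimpArgs false
set_option maxRecDepth 100000

namespace Cfsg.Agent.Lib.E6Inv50

open Cfsg Cfsg.Lie Cfsg.Agent.Lib.Chev Cfsg.Agent.Lib.Chev.TwE6

section Reps

variable {K : Type*} [Field K] [CharP K 2] (f : K ≃+* K)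

theorem t1_eq : E f 0 0 0 0 0 0 0 0 0 0 0 0 0 0 0 0 0 0 0 0 0 0 0 (1) = x 71 1 * 1 := by
  unfold E W
  simp [x_zero]

theorem t2_eq : E f 0 0 0 0 0 0 0 0 0 0 0 0 0 0 0 0 0 0 0 0 (1) 0 0 0 = x 68 1 * (x 66 1 * 1) := by
  rw [s_68_66]
  unfold E W
  simp [x_zero]

theorem t3_eq : E f 0 0 0 0 0 0 0 0 0 0 0 0 0 0 0 0 (1) 0 0 (1) 0 0 0 0 = x 55 1 * (x 65 1 * (x 67 1 * 1)) := by
  unfold E W
  simp [x_zero]

theorem rank_le (h u : GL chevE6.Idx K) :
    (((h * u * h⁻¹ : GL chevE6.Idx K) : Matrix chevE6.Idx chevE6.Idx K) - 1).rank ≤ ((u : Matrix chevE6.Idx chevE6.Idx K) - 1).rank := by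
  have e2 : ((h * u * h⁻¹ : GL chevE6.Idx K) : Matrix chevE6.Idx chevE6.Idx K) - 1
      = (h : Matrix chevE6.Idx chevE6.Idx K) * ((u : Matrix chevE6.Idx chevE6.Idx K) - 1)
        * ((h⁻¹ : GL chevE6.Idx K) : Matrix chevE6.Idx chevE6.Idx K) := by
    rw [mul_sub, sub_mul, mul_one, Units.val_mul, Units.val_mul]
    simp
  rw [e2]
  exact (Matrix.rank_mul_le_left _ _).trans (Matrix.rank_mul_le_right _ _)

theorem rank_eq (h u v : GL chevE6.Idx K) (e : h * u * h⁻¹ = v) :
    ((v : Matrix chevE6.Idx chevE6.Idx K) - 1).rank = ((u : Matrix chevE6.Idx chevE6.Idx K) - 1).rank := by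
  apply le_antisymm
  · rw [← e]
    exact rank_le h u
  · have e2 : u = h⁻¹ * v * h⁻¹⁻¹ := by
      rw [← e]
      group
    conv_lhs => rw [e2]
    exact rank_le h⁻¹ v

theorem rk_t1 : (((E f 0 0 0 0 0 0 0 0 0 0 0 0 0 0 0 0 0 0 0 0 0 0 0 (1) : GL chevE6.Idx K) : Matrix chevE6.Idx chevE6.Idx K) - 1).rank = 22 := by
  have h := ChevInv.InvE6.rk0 (F := K)
  rw [ChevInv.coe_xL ChevInv.InvE6.hF] at h
  rw [t1_eq]
  simpa using h

theorem rk_t2 : (((E f 0 0 0 0 0 0 0 0 0 0 0 0 0 0 0 0 0 0 0 0 (1) 0 0 0 : GL chevE6.Idx K) : Matrix chevE6.Idx chevE6.Idx K) - 1).rank = 32 := by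
  have h := ChevInv.InvE6.rk1 (F := K)
  rw [ChevInv.coe_xL ChevInv.InvE6.hF] at h
  rw [t2_eq]
  simpa using h

theorem rk_t3 : (((E f 0 0 0 0 0 0 0 0 0 0 0 0 0 0 0 0 (1) 0 0 (1) 0 0 0 0 : GL chevE6.Idx K) : Matrix chevE6.Idx chevE6.Idx K) - 1).rank = 38 := by
  have h := ChevInv.InvE6.rk2 (F := K)
  rw [ChevInv.coe_xL ChevInv.InvE6.hF] at h
  rw [t3_eq]
  simpa using h

theorem T1_sq : E f 0 0 0 0 0 0 0 0 0 0 0 0 0 0 0 0 0 0 0 0 0 0 0 (1) * E f 0 0 0 0 0 0 0 0 0 0 0 0 0 0 0 0 0 0 0 0 0 0 0 (1) = 1 := by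
  have h2 : (2 : K) = 0 := CharTwo.two_eq_zero
  unfold E
  rw [W_mul, ← W_zero]
  apply W_congr
  · (try simp only [map_zero, map_one]) <;> linear_combination (0 : K) * h2
  · (try simp only [map_zero, map_one]) <;> linear_combination (0 : K) * h2
  · (try simp only [map_zero, map_one]) <;> linear_combination (0 : K) * h2
  · (try simp only [map_zero, map_one]) <;> linear_combination (0 : K) * h2
  · (try simp only [map_zero, map_one]) <;> linear_combination (0 : K) * h2
  · (try simp only [map_zero, map_one]) <;> linear_combination (0 : K) * h2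
  · (try simp only [map_zero, map_one]) <;> linear_combination (0 : K) * h2
  · (try simp only [map_zero, map_one]) <;> linear_combination (0 : K) * h2
  · (try simp only [map_zero, map_one]) <;> linear_combination (0 : K) * h2
  · (try simp only [map_zero, map_one]) <;> linear_combination (0 : K) * h2
  · (try simp only [map_zero, map_one]) <;> linear_combination (0 : K) * h2
  · (try simp only [map_zero, map_one]) <;> linear_combination (0 : K) * h2
  · (try simp only [map_zero, map_one]) <;> linear_combination (0 : K) * h2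
  · (try simp only [map_zero, map_one]) <;> linear_combination (0 : K) * h2
  · (try simp only [map_zero, map_one]) <;> linear_combination (0 : K) * h2
  · (try simp only [map_zero, map_one]) <;> linear_combination (0 : K) * h2
  · (try simp only [map_zero, map_one]) <;> linear_combination (0 : K) * h2
  · (try simp only [map_zero, map_one]) <;> linear_combination (0 : K) * h2
  · (try simp only [map_zero, map_one]) <;> linear_combination (0 : K) * h2
  · (try simp only [map_zero, map_one]) <;> linear_combination (0 : K) * h2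
  · (try simp only [map_zero, map_one]) <;> linear_combination (0 : K) * h2
  · (try simp only [map_zero, map_one]) <;> linear_combination (0 : K) * h2
  · (try simp only [map_zero, map_one]) <;> linear_combination (0 : K) * h2
  · (try simp only [map_zero, map_one]) <;> linear_combination (0 : K) * h2
  · (try simp only [map_zero, map_one]) <;> linear_combination (0 : K) * h2
  · (try simp only [map_zero, map_one]) <;> linear_combination (0 : K) * h2
  · (try simp only [map_zero, map_one]) <;> linear_combination (0 : K) * h2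
  · (try simp only [map_zero, map_one]) <;> linear_combination (0 : K) * h2
  · (try simp only [map_zero, map_one]) <;> linear_combination (0 : K) * h2
  · (try simp only [map_zero, map_one]) <;> linear_combination (0 : K) * h2
  · (try simp only [map_zero, map_one]) <;> linear_combination (0 : K) * h2
  · (try simp only [map_zero, map_one]) <;> linear_combination (0 : K) * h2
  · (try simp only [map_zero, map_one]) <;> linear_combination (0 : K) * h2
  · (try simp only [map_zero, map_one]) <;> linear_combination (0 : K) * h2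
  · (try simp only [map_zero, map_one]) <;> linear_combination (0 : K) * h2
  · (try simp only [map_zero, map_one]) <;> linear_combination (1) * h2

theorem T1_ne : E f 0 0 0 0 0 0 0 0 0 0 0 0 0 0 0 0 0 0 0 0 0 0 0 (1) ≠ 1 := by
  intro h
  rw [← E_zero f] at h
  obtain ⟨-, -, -, -, -, -, -, -, -, -, -, -, -, -, -, -, -, -, -, -, -, -, -, h0⟩ := E_inj f h
  exact one_ne_zero h0

theorem T2_sq : E f 0 0 0 0 0 0 0 0 0 0 0 0 0 0 0 0 0 0 0 0 (1) 0 0 0 * E f 0 0 0 0 0 0 0 0 0 0 0 0 0 0 0 0 0 0 0 0 (1) 0 0 0 = 1 := by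
  have h2 : (2 : K) = 0 := CharTwo.two_eq_zero
  unfold E
  rw [W_mul, ← W_zero]
  apply W_congr
  · (try simp only [map_zero, map_one]) <;> linear_combination (0 : K) * h2
  · (try simp only [map_zero, map_one]) <;> linear_combination (0 : K) * h2
  · (try simp only [map_zero, map_one]) <;> linear_combination (0 : K) * h2
  · (try simp only [map_zero, map_one]) <;> linear_combination (0 : K) * h2
  · (try simp only [map_zero, map_one]) <;> linear_combination (0 : K) * h2
  · (try simp only [map_zero, map_one]) <;> linear_combination (0 : K) * h2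
  · (try simp only [map_zero, map_one]) <;> linear_combination (0 : K) * h2
  · (try simp only [map_zero, map_one]) <;> linear_combination (0 : K) * h2
  · (try simp only [map_zero, map_one]) <;> linear_combination (0 : K) * h2
  · (try simp only [map_zero, map_one]) <;> linear_combination (0 : K) * h2
  · (try simp only [map_zero, map_one]) <;> linear_combination (0 : K) * h2
  · (try simp only [map_zero, map_one]) <;> linear_combination (0 : K) * h2
  · (try simp only [map_zero, map_one]) <;> linear_combination (0 : K) * h2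
  · (try simp only [map_zero, map_one]) <;> linear_combination (0 : K) * h2
  · (try simp only [map_zero, map_one]) <;> linear_combination (0 : K) * h2
  · (try simp only [map_zero, map_one]) <;> linear_combination (0 : K) * h2
  · (try simp only [map_zero, map_one]) <;> linear_combination (0 : K) * h2
  · (try simp only [map_zero, map_one]) <;> linear_combination (0 : K) * h2
  · (try simp only [map_zero, map_one]) <;> linear_combination (0 : K) * h2
  · (try simp only [map_zero, map_one]) <;> linear_combination (0 : K) * h2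
  · (try simp only [map_zero, map_one]) <;> linear_combination (0 : K) * h2
  · (try simp only [map_zero, map_one]) <;> linear_combination (0 : K) * h2
  · (try simp only [map_zero, map_one]) <;> linear_combination (0 : K) * h2
  · (try simp only [map_zero, map_one]) <;> linear_combination (0 : K) * h2
  · (try simp only [map_zero, map_one]) <;> linear_combination (0 : K) * h2
  · (try simp only [map_zero, map_one]) <;> linear_combination (0 : K) * h2
  · (try simp only [map_zero, map_one]) <;> linear_combination (0 : K) * h2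
  · (try simp only [map_zero, map_one]) <;> linear_combination (0 : K) * h2
  · (try simp only [map_zero, map_one]) <;> linear_combination (0 : K) * h2
  · (try simp only [map_zero, map_one]) <;> linear_combination (0 : K) * h2
  · (try simp only [map_zero, map_one]) <;> linear_combination (1) * h2
  · (try simp only [map_zero, map_one]) <;> linear_combination (0 : K) * h2
  · (try simp only [map_zero, map_one]) <;> linear_combination (1) * h2
  · (try simp only [map_zero, map_one]) <;> linear_combination (0 : K) * h2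
  · (try simp only [map_zero, map_one]) <;> linear_combination (0 : K) * h2
  · (try simp only [map_zero, map_one]) <;> linear_combination (0 : K) * h2

theorem T2_ne : E f 0 0 0 0 0 0 0 0 0 0 0 0 0 0 0 0 0 0 0 0 (1) 0 0 0 ≠ 1 := by
  intro h
  rw [← E_zero f] at h
  obtain ⟨-, -, -, -, -, -, -, -, -, -, -, -, -, -, -, -, -, -, -, -, h0, -, -, -⟩ := E_inj f h
  exact one_ne_zero h0

theorem T3_sq : E f 0 0 0 0 0 0 0 0 0 0 0 0 0 0 0 0 (1) 0 0 (1) 0 0 0 0 * E f 0 0 0 0 0 0 0 0 0 0 0 0 0 0 0 0 (1) 0 0 (1) 0 0 0 0 = 1 := by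
  have h2 : (2 : K) = 0 := CharTwo.two_eq_zero
  unfold E
  rw [W_mul, ← W_zero]
  apply W_congr
  · (try simp only [map_zero, map_one]) <;> linear_combination (0 : K) * h2
  · (try simp only [map_zero, map_one]) <;> linear_combination (0 : K) * h2
  · (try simp only [map_zero, map_one]) <;> linear_combination (0 : K) * h2
  · (try simp only [map_zero, map_one]) <;> linear_combination (0 : K) * h2
  · (try simp only [map_zero, map_one]) <;> linear_combination (0 : K) * h2
  · (try simp only [map_zero, map_one]) <;> linear_combination (0 : K) * h2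
  · (try simp only [map_zero, map_one]) <;> linear_combination (0 : K) * h2
  · (try simp only [map_zero, map_one]) <;> linear_combination (0 : K) * h2
  · (try simp only [map_zero, map_one]) <;> linear_combination (0 : K) * h2
  · (try simp only [map_zero, map_one]) <;> linear_combination (0 : K) * h2
  · (try simp only [map_zero, map_one]) <;> linear_combination (0 : K) * h2
  · (try simp only [map_zero, map_one]) <;> linear_combination (0 : K) * h2
  · (try simp only [map_zero, map_one]) <;> linear_combination (0 : K) * h2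
  · (try simp only [map_zero, map_one]) <;> linear_combination (0 : K) * h2
  · (try simp only [map_zero, map_one]) <;> linear_combination (0 : K) * h2
  · (try simp only [map_zero, map_one]) <;> linear_combination (0 : K) * h2
  · (try simp only [map_zero, map_one]) <;> linear_combination (0 : K) * h2
  · (try simp only [map_zero, map_one]) <;> linear_combination (0 : K) * h2
  · (try simp only [map_zero, map_one]) <;> linear_combination (0 : K) * h2
  · (try simp only [map_zero, map_one]) <;> linear_combination (1) * h2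
  · (try simp only [map_zero, map_one]) <;> linear_combination (0 : K) * h2
  · (try simp only [map_zero, map_one]) <;> linear_combination (0 : K) * h2
  · (try simp only [map_zero, map_one]) <;> linear_combination (0 : K) * h2
  · (try simp only [map_zero, map_one]) <;> linear_combination (0 : K) * h2
  · (try simp only [map_zero, map_one]) <;> linear_combination (0 : K) * h2
  · (try simp only [map_zero, map_one]) <;> linear_combination (0 : K) * h2
  · (try simp only [map_zero, map_one]) <;> linear_combination (0 : K) * h2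
  · (try simp only [map_zero, map_one]) <;> linear_combination (0 : K) * h2
  · (try simp only [map_zero, map_one]) <;> linear_combination (0 : K) * h2
  · (try simp only [map_zero, map_one]) <;> linear_combination (1) * h2
  · (try simp only [map_zero, map_one]) <;> linear_combination (0 : K) * h2
  · (try simp only [map_zero, map_one]) <;> linear_combination (1) * h2
  · (try simp only [map_zero, map_one]) <;> linear_combination (0 : K) * h2
  · (try simp only [map_zero, map_one]) <;> linear_combination (0 : K) * h2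
  · (try simp only [map_zero, map_one]) <;> linear_combination (0 : K) * h2
  · (try simp only [map_zero, map_one]) <;> linear_combination (0 : K) * h2

theorem T3_ne : E f 0 0 0 0 0 0 0 0 0 0 0 0 0 0 0 0 (1) 0 0 (1) 0 0 0 0 ≠ 1 := by
  intro h
  rw [← E_zero f] at h
  obtain ⟨-, -, -, -, -, -, -, -, -, -, -, -, -, -, -, -, -, -, -, h0, -, -, -, -⟩ := E_inj f h
  exact one_ne_zero h0


end Reps

section Sylow

variable {K : Type*} [Field K] [CharP K 2] [Fintype K]

theorem exists_conj_into_U {k : ℕ} (hk : k ≠ 0) (hK : Fintype.card K = (2 ^ k) ^ 2)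
    (g : ↥(twistedE6 K (2 ^ k))) (hg : orderOf g = 2) :
    ∃ h : ↥(twistedE6 K (2 ^ k)), ((h * g * h⁻¹ : ↥(twistedE6 K (2 ^ k))) : GL chevE6.Idx K) ∈ chevE6.posUnipotent K := by
  classical
  have hq : IsPrimePow (2 ^ k) := Nat.prime_two.isPrimePow.pow hk
  have : Fact (Nat.Prime 2) := ⟨Nat.prime_two⟩
  let P : Subgroup ↥(twistedE6 K (2 ^ k)) := (chevE6.posUnipotent K ⊓ twistedE6 K (2 ^ k)).subgroupOf (twistedE6 K (2 ^ k))
  have hP : Nat.card P = (2 ^ k) ^ 36 := by
    rw [Nat.card_congr (Subgroup.subgroupOfEquivOfLe inf_le_right).toEquiv]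
    exact card_U1 hq hK
  have hG := card_twisted hq hK
  have hi := Subgroup.card_mul_index P
  rw [hP] at hi
  have h2 : 2 ∣ 2 ^ k := dvd_pow_self 2 hk
  have hge : 2 ≤ 2 ^ k := Nat.le_of_dvd (by positivity) h2
  generalize hgg : Nat.gcd 3 (2 ^ k + 1) = gg at hG
  have hi2 : gg * P.index = ((2 ^ k) ^ 2 - 1) * ((2 ^ k) ^ 5 + 1) * ((2 ^ k) ^ 6 - 1) * ((2 ^ k) ^ 8 - 1) * ((2 ^ k) ^ 9 + 1) * ((2 ^ k) ^ 12 - 1) := by
    have h0 : 0 < (2 ^ k) ^ 36 := by positivity
    have h1 : (2 ^ k) ^ 36 * (gg * P.index) = (2 ^ k) ^ 36 * (((2 ^ k) ^ 2 - 1) * ((2 ^ k) ^ 5 + 1) * ((2 ^ k) ^ 6 - 1) * ((2 ^ k) ^ 8 - 1) * ((2 ^ k) ^ 9 + 1) * ((2 ^ k) ^ 12 - 1)) := by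
      calc (2 ^ k) ^ 36 * (gg * P.index) = gg * ((2 ^ k) ^ 36 * P.index) := by ring
        _ = gg * Nat.card ↥(twistedE6 K (2 ^ k)) := by rw [hi]
        _ = _ := by rw [hG]; ring
    exact Nat.eq_of_mul_eq_mul_left h0 h1
  have hodd : ¬ 2 ∣ P.index := by
    intro hd
    have hd2 : 2 ∣ gg * P.index := hd.trans (dvd_mul_left _ _)
    rw [hi2] at hd2
    have hq1 : ∀ n, n ≠ 0 → ¬ 2 ∣ (2 ^ k) ^ n - 1 := by
      intro n hn hd
      have h3 : 2 ∣ (2 ^ k) ^ n := h2.trans (dvd_pow_self _ hn)
      have h4 : 1 ≤ (2 ^ k) ^ n := Nat.one_le_pow _ _ (by omega)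
      omega
    have hq2 : ∀ n, n ≠ 0 → ¬ 2 ∣ (2 ^ k) ^ n + 1 := by
      intro n hn hd
      have h3 : 2 ∣ (2 ^ k) ^ n := h2.trans (dvd_pow_self _ hn)
      omega
    rw [Nat.Prime.dvd_mul Nat.prime_two, Nat.Prime.dvd_mul Nat.prime_two, Nat.Prime.dvd_mul Nat.prime_two, Nat.Prime.dvd_mul Nat.prime_two, Nat.Prime.dvd_mul Nat.prime_two] at hd2
    rcases hd2 with (((((h | h) | h) | h) | h) | h)
    · exact hq1 2 (by norm_num) h
    · exact hq2 5 (by norm_num) h
    · exact hq1 6 (by norm_num) h
    · exact hq1 8 (by norm_num) h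
    · exact hq2 9 (by norm_num) h
    · exact hq1 12 (by norm_num) h
  have hp : IsPGroup 2 P := IsPGroup.of_card (n := k * 36) (by rw [hP, pow_mul])
  let S : Sylow 2 ↥(twistedE6 K (2 ^ k)) := hp.toSylow hodd
  have hz : IsPGroup 2 (Subgroup.zpowers g) := IsPGroup.of_card (n := 1) (by rw [Nat.card_zpowers, hg, pow_one])
  obtain ⟨Q, hQ⟩ := hz.exists_le_sylow
  obtain ⟨h, hh⟩ := MulAction.exists_smul_eq ↥(twistedE6 K (2 ^ k)) Q S
  refine ⟨h, ?_⟩
  have hgQ : g ∈ (Q : Subgroup _) := hQ (Subgroup.mem_zpowers g)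
  have h5 : h * g * h⁻¹ ∈ (S : Subgroup ↥(twistedE6 K (2 ^ k))) := by
    rw [← hh, Sylow.coe_subgroup_smul]
    exact Subgroup.mem_pointwise_smul_iff_inv_smul_mem.2 (by simpa [MulAut.conj_inv_apply, mul_assoc] using hgQ)
  have h6 : h * g * h⁻¹ ∈ P := h5
  exact (Subgroup.mem_subgroupOf.1 h6).1

/-- The data of the field automorphism exist. -/
theorem exists_dt {q : ℕ} (hq : IsPrimePow q) (hK : Fintype.card K = q ^ 2) {f : K ≃+* K} (hf : ∀ t, f t = t ^ q)
    (hf2 : ∀ t, f^[2] t = t) : Dt f := by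
  classical
  have hff : ∀ t, f (f t) = t := hf2
  refine ⟨hff, ?_⟩
  have hne : ∃ a, f a ≠ a := by
    by_contra hcon
    push Not at hcon
    have h1 : Nat.card {t : K // t ^ q = t} = q := card_fix_pow hq hK (by norm_num)
    have h2 : Nat.card {t : K // t ^ q = t} = Nat.card K := by
      refine Nat.card_congr ⟨fun t => t.1, fun t => ⟨t, ?_⟩, fun t => rfl, fun t => rfl⟩
      rw [← hf, hcon]
    rw [Nat.card_eq_fintype_card (α := K), hK] at h2
    have hq2 : 2 ≤ q := hq.two_le
    have : q < q ^ 2 := by nlinarith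
    omega
  obtain ⟨a, ha⟩ := hne
  have h2 : (2 : K) = 0 := CharTwo.two_eq_zero
  have hne2 : a + f a ≠ 0 := by
    intro h
    apply ha
    linear_combination h - a * h2
  refine ⟨a / (a + f a), ?_⟩
  rw [map_div₀, map_add, hff]
  have hne3 : f a + a ≠ 0 := by rwa [add_comm]
  field_simp
  ring

end Sylow

section Main

variable {K : Type*} [Field K] [Fintype K] [CharP K 2]

theorem main_count (q : ℕ) (hK : Fintype.card K = q ^ 2) :
    (ConjClasses.mk '' {g : ↥(Cfsg.Lie.twistedE6 K q) | orderOf g = 2}).ncard = 3 := by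
  classical
  obtain ⟨n, hn2, hn⟩ := FiniteField.card K 2
  have hq2 : ∃ k, k ≠ 0 ∧ q = 2 ^ k := by
    have h1 : q ∣ 2 ^ (n : ℕ) := by
      rw [← hn, hK]
      exact dvd_pow_self q (by norm_num)
    obtain ⟨k, -, hk⟩ := (Nat.dvd_prime_pow Nat.prime_two).1 h1
    refine ⟨k, ?_, hk⟩
    rintro rfl
    have hq1 : q = 1 := by simpa using hk
    have : Fintype.card K = 1 := by rw [hK, hq1]; norm_num
    exact Fintype.one_lt_card.ne' this
  obtain ⟨k, hk, rfl⟩ := hq2
  have hq : IsPrimePow (2 ^ k) := Nat.prime_two.isPrimePow.pow hk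
  obtain ⟨f, hf, hf2⟩ := exists_frob2 hq hK
  have d : Dt f := exists_dt hq hK hf hf2
  have hG1 : (sc f).G1 = twistedE6 K (2 ^ k) := G1_eq f hf hf2
  have hm1 : E f 0 0 0 0 0 0 0 0 0 0 0 0 0 0 0 0 0 0 0 0 0 0 0 (1) ∈ twistedE6 K (2 ^ k) := by
    rw [← hG1]
    exact E_mem_G1 d (map_zero f) (map_zero f) (map_zero f) (map_zero f) (map_zero f) (map_zero f) (map_zero f) (map_zero f) (map_zero f) (map_zero f) (map_zero f) (map_one f) 0 0 0 0 0 0 0 0 0 0 0 0
  have hm2 : E f 0 0 0 0 0 0 0 0 0 0 0 0 0 0 0 0 0 0 0 0 (1) 0 0 0 ∈ twistedE6 K (2 ^ k) := by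
    rw [← hG1]
    exact E_mem_G1 d (map_zero f) (map_zero f) (map_zero f) (map_zero f) (map_zero f) (map_zero f) (map_zero f) (map_zero f) (map_zero f) (map_zero f) (map_zero f) (map_zero f) 0 0 0 0 0 0 0 0 0 0 0 1
  have hm3 : E f 0 0 0 0 0 0 0 0 0 0 0 0 0 0 0 0 (1) 0 0 (1) 0 0 0 0 ∈ twistedE6 K (2 ^ k) := by
    rw [← hG1]
    exact E_mem_G1 d (map_zero f) (map_zero f) (map_zero f) (map_zero f) (map_zero f) (map_zero f) (map_zero f) (map_zero f) (map_one f) (map_zero f) (map_zero f) (map_zero f) 0 0 0 0 0 0 0 0 0 0 1 0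
  let T1 : ↥(twistedE6 K (2 ^ k)) := ⟨_, hm1⟩
  let T2 : ↥(twistedE6 K (2 ^ k)) := ⟨_, hm2⟩
  let T3 : ↥(twistedE6 K (2 ^ k)) := ⟨_, hm3⟩
  have ho : ∀ T : ↥(twistedE6 K (2 ^ k)), (T : GL chevE6.Idx K) * T = 1 → (T : GL chevE6.Idx K) ≠ 1 → orderOf T = 2 := by
    intro T h1 h2
    refine orderOf_eq_prime ?_ ?_
    · rw [pow_two]
      exact Subtype.ext h1
    · intro h
      exact h2 (congrArg Subtype.val h)
  have ho1 : orderOf T1 = 2 := ho T1 (T1_sq f) (T1_ne f)
  have ho2 : orderOf T2 = 2 := ho T2 (T2_sq f) (T2_ne f)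
  have ho3 : orderOf T3 = 2 := ho T3 (T3_sq f) (T3_ne f)
  have hset : ConjClasses.mk '' {g : ↥(twistedE6 K (2 ^ k)) | orderOf g = 2} = {ConjClasses.mk T1, ConjClasses.mk T2, ConjClasses.mk T3} := by
    ext c
    simp only [Set.mem_image, Set.mem_ofPred_eq, Set.mem_insert_iff, Set.mem_singleton_iff]
    constructor
    · rintro ⟨g, hg, rfl⟩
      obtain ⟨h, hh⟩ := exists_conj_into_U hk hK g hg
      have hmemG : ((h * g * h⁻¹ : ↥(twistedE6 K (2 ^ k))) : GL chevE6.Idx K) ∈ (sc f).G1 := by
        rw [hG1]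
        exact (h * g * h⁻¹).2
      obtain ⟨l36, l37, l38, t39, l40, l41, t44, l45, t46, t47, l48, l49, t51, l52, t53, l54, l55, t60, t63, t65, l66, t69, t70, t71, hinv, hu⟩ := exists_E d hq hK hf hh hmemG
      set u : ↥(twistedE6 K (2 ^ k)) := h * g * h⁻¹ with hu_def
      have hg2 : g * g = 1 := by
        have := pow_orderOf_eq_one g
        rwa [hg, pow_two] at this
      have hg1 : g ≠ 1 := by
        rintro rfl
        simp at hg
      have hus : u * u = 1 := by
        rw [hu_def]
        calc h * g * h⁻¹ * (h * g * h⁻¹) = h * (g * g) * h⁻¹ := by group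
          _ = 1 := by rw [hg2]; group
      have hune : u ≠ 1 := by
        intro h0
        apply hg1
        rw [hu_def] at h0
        have : g = h⁻¹ * (h * g * h⁻¹) * h := by group
        rw [this, h0]
        group
      have hv : (u : GL chevE6.Idx K) = E f l36 l37 l38 t39 l40 l41 t44 l45 t46 t47 l48 l49 t51 l52 t53 l54 l55 t60 t63 t65 l66 t69 t70 t71 := hu
      have hsE : E f l36 l37 l38 t39 l40 l41 t44 l45 t46 t47 l48 l49 t51 l52 t53 l54 l55 t60 t63 t65 l66 t69 t70 t71 * E f l36 l37 l38 t39 l40 l41 t44 l45 t46 t47 l48 l49 t51 l52 t53 l54 l55 t60 t63 t65 l66 t69 t70 t71 = 1 := by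
        rw [← hv]
        exact congrArg Subtype.val hus
      have hneE : E f l36 l37 l38 t39 l40 l41 t44 l45 t46 t47 l48 l49 t51 l52 t53 l54 l55 t60 t63 t65 l66 t69 t70 t71 ≠ 1 := by
        rw [← hv]
        intro h0
        exact hune (Subtype.ext h0)
      have hmE : E f l36 l37 l38 t39 l40 l41 t44 l45 t46 t47 l48 l49 t51 l52 t53 l54 l55 t60 t63 t65 l66 t69 t70 t71 ∈ (sc f).G1 := by
        rw [← hv]
        exact hmemG
      have key : ∀ T : ↥(twistedE6 K (2 ^ k)), Cj f (E f l36 l37 l38 t39 l40 l41 t44 l45 t46 t47 l48 l49 t51 l52 t53 l54 l55 t60 t63 t65 l66 t69 t70 t71) (T : GL chevE6.Idx K) → ConjClasses.mk g = ConjClasses.mk T := by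
        rintro T ⟨m, hm, hmT⟩
        rw [hG1] at hm
        refine ConjClasses.mk_eq_mk_iff_isConj.2 (isConj_iff.2 ⟨⟨m, hm⟩ * h, ?_⟩)
        apply Subtype.ext
        rw [← hmT, ← hv]
        simp only [hu_def, Subgroup.coe_mul, Subgroup.coe_inv, mul_inv_rev]
        group
      rcases reduce d hneE hmE hsE with h1 | h1 | h1
      · exact Or.inl (key T1 h1)
      · exact Or.inr (Or.inl (key T2 h1))
      · exact Or.inr (Or.inr (key T3 h1))
    · rintro (rfl | rfl | rfl)
      · exact ⟨T1, ho1, rfl⟩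
      · exact ⟨T2, ho2, rfl⟩
      · exact ⟨T3, ho3, rfl⟩
  have hne : ∀ (A B : ↥(twistedE6 K (2 ^ k))),
      (((A : GL chevE6.Idx K) : Matrix chevE6.Idx chevE6.Idx K) - 1).rank ≠ (((B : GL chevE6.Idx K) : Matrix chevE6.Idx chevE6.Idx K) - 1).rank →
      ConjClasses.mk A ≠ ConjClasses.mk B := by
    intro A B hr h
    obtain ⟨c, hc⟩ := isConj_iff.1 (ConjClasses.mk_eq_mk_iff_isConj.1 h)
    exact hr (rank_eq (c : GL chevE6.Idx K) _ _ (congrArg Subtype.val hc)).symm
  have r1 : (((T1 : GL chevE6.Idx K) : Matrix chevE6.Idx chevE6.Idx K) - 1).rank = 22 := rk_t1 f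
  have r2 : (((T2 : GL chevE6.Idx K) : Matrix chevE6.Idx chevE6.Idx K) - 1).rank = 32 := rk_t2 f
  have r3 : (((T3 : GL chevE6.Idx K) : Matrix chevE6.Idx chevE6.Idx K) - 1).rank = 38 := rk_t3 f
  have n12 := hne T1 T2 (by rw [r1, r2]; norm_num)
  have n13 := hne T1 T3 (by rw [r1, r3]; norm_num)
  have n23 := hne T2 T3 (by rw [r2, r3]; norm_num)
  rw [hset, Set.ncard_insert_of_notMem (by simp [n12, n13]), Set.ncard_pair n23]

end Main

end Cfsg.Agent.Lib.E6Inv50
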