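import Mathlib

/-!
# The `E₈` root lattice in simple-root coordinates

`Q = ℤ⁸` with the Cartan form `bf`; roots are the vectors of norm `2`.  Everything needed about
roots is derived from positive definiteness (an explicit sum of squares).
-/

set_option autoImplicit false
set_option linter.unusedSimpArgs false
set_option linter.unusedTactic false
set_option linter.unreachableTactic false
set_option linter.style.longLine false

namespace Cfsg.Agent.Lib.E8Two

abbrev Q := Fin 8 → ℤ

/-- The `E₈` Cartan form in simple-root coordinates (Bourbaki labels shifted by one: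
the branch node is `3`). -/
def bf (u v : Q) : ℤ :=
  2 * (u 0 * v 0 + u 1 * v 1 + u 2 * v 2 + u 3 * v 3 + u 4 * v 4 + u 5 * v 5 + u 6 * v 6 + u 7 * v 7)
  - (u 0 * v 2 + u 2 * v 0 + u 2 * v 3 + u 3 * v 2 + u 3 * v 4 + u 4 * v 3 + u 4 * v 5 + u 5 * v 4
     + u 5 * v 6 + u 6 * v 5 + u 6 * v 7 + u 7 * v 6 + u 1 * v 3 + u 3 * v 1)

lemma bf_comm (u v : Q) : bf u v = bf v u := by
  simp only [bf]; ring

lemma bf_add_left (u v w : Q) : bf (u + v) w = bf u w + bf v w := by
  simp only [bf, Pi.add_apply]; ring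

lemma bf_add_right (u v w : Q) : bf w (u + v) = bf w u + bf w v := by
  simp only [bf, Pi.add_apply]; ring

lemma bf_neg_left (u w : Q) : bf (-u) w = - bf u w := by
  simp only [bf, Pi.neg_apply]; ring

lemma bf_neg_right (u w : Q) : bf w (-u) = - bf w u := by
  simp only [bf, Pi.neg_apply]; ring

lemma bf_sub_left (u v w : Q) : bf (u - v) w = bf u w - bf v w := by
  simp only [bf, Pi.sub_apply]; ring

lemma bf_sub_right (u v w : Q) : bf w (u - v) = bf w u - bf w v := by
  simp only [bf, Pi.sub_apply]; ring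

lemma bf_smul_left (k : ℤ) (u w : Q) : bf (k • u) w = k * bf u w := by
  simp only [bf, Pi.smul_apply, smul_eq_mul]; ring

lemma bf_smul_right (k : ℤ) (u w : Q) : bf w (k • u) = k * bf w u := by
  simp only [bf, Pi.smul_apply, smul_eq_mul]; ring

lemma bf_zero_left (w : Q) : bf 0 w = 0 := by
  simp [bf]

lemma bf_zero_right (w : Q) : bf w 0 = 0 := by
  simp [bf]

/-- The sum-of-squares identity behind positive definiteness. -/
lemma bf_self_sos (u : Q) :
    4 * bf u u = (u 0 + 2 * u 1 - 2 * u 2) ^ 2 + (- u 0 + 2 * u 1 + 2 * u 2 - 2 * u 3) ^ 2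
      + (- u 0 + 2 * u 3 - 2 * u 4) ^ 2 + (- u 0 + 2 * u 4 - 2 * u 5) ^ 2
      + (- u 0 + 2 * u 5 - 2 * u 6) ^ 2 + (- u 0 + 2 * u 6 - 2 * u 7) ^ 2
      + (- u 0 + 2 * u 7) ^ 2 + (u 0) ^ 2 := by
  simp only [bf]; ring

lemma bf_self_nonneg (u : Q) : 0 ≤ bf u u := by
  have h := bf_self_sos u
  have : 0 ≤ 4 * bf u u := by rw [h]; positivity
  omega

lemma sum8_sq_zero (a1 a2 a3 a4 a5 a6 a7 a8 : ℤ)
    (h : 4 * 0 = a1 ^ 2 + a2 ^ 2 + a3 ^ 2 + a4 ^ 2 + a5 ^ 2 + a6 ^ 2 + a7 ^ 2 + a8 ^ 2) :
    a1 = 0 ∧ a2 = 0 ∧ a3 = 0 ∧ a4 = 0 ∧ a5 = 0 ∧ a6 = 0 ∧ a7 = 0 ∧ a8 = 0 := by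
  have s1 := sq_nonneg a1
  have s2 := sq_nonneg a2
  have s3 := sq_nonneg a3
  have s4 := sq_nonneg a4
  have s5 := sq_nonneg a5
  have s6 := sq_nonneg a6
  have s7 := sq_nonneg a7
  have s8 := sq_nonneg a8
  refine ⟨?_, ?_, ?_, ?_, ?_, ?_, ?_, ?_⟩ <;> apply pow_eq_zero_iff (n := 2) (by norm_num) |>.1 <;> linarith

lemma eq_zero_of_bf_self (u : Q) (hu : bf u u = 0) : u = 0 := by
  have h := bf_self_sos u
  rw [hu] at h
  obtain ⟨h1, h2, h3, h4, h5, h6, h7, h8⟩ := sum8_sq_zero _ _ _ _ _ _ _ _ h
  have e0 : u 0 = 0 := h8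
  have e7 : u 7 = 0 := by omega
  have e6 : u 6 = 0 := by omega
  have e5 : u 5 = 0 := by omega
  have e4 : u 4 = 0 := by omega
  have e3 : u 3 = 0 := by omega
  have e2 : u 2 = 0 := by omega
  have e1 : u 1 = 0 := by omega
  funext i
  fin_cases i
  · exact e0
  · exact e1
  · exact e2
  · exact e3
  · exact e4
  · exact e5
  · exact e6
  · exact e7

lemma bf_self_even (u : Q) : ∃ k, bf u u = 2 * k :=
  ⟨(u 0 * u 0 + u 1 * u 1 + u 2 * u 2 + u 3 * u 3 + u 4 * u 4 + u 5 * u 5 + u 6 * u 6 + u 7 * u 7)
    - (u 0 * u 2 + u 2 * u 3 + u 3 * u 4 + u 4 * u 5 + u 5 * u 6 + u 6 * u 7 + u 1 * u 3), by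
      simp only [bf]; ring⟩

/-- A nonzero vector has norm at least two. -/
lemma two_le_bf_self {u : Q} (hu : u ≠ 0) : 2 ≤ bf u u := by
  obtain ⟨k, hk⟩ := bf_self_even u
  have h0 := bf_self_nonneg u
  have h1 : bf u u ≠ 0 := fun h => hu (eq_zero_of_bf_self u h)
  omega

section roots

variable {a b u : Q}

lemma norm_sub (x y : Q) : bf (x - y) (x - y) = bf x x + bf y y - 2 * bf x y := by
  simp only [bf_sub_left, bf_sub_right, bf_comm y x]; ring

lemma norm_add (x y : Q) : bf (x + y) (x + y) = bf x x + bf y y + 2 * bf x y := by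
  simp only [bf_add_left, bf_add_right, bf_comm y x]; ring

lemma norm_neg (x : Q) : bf (-x) (-x) = bf x x := by
  simp only [bf_neg_left, bf_neg_right]; ring

lemma bf_le_two (ha : bf a a = 2) (hb : bf b b = 2) : bf a b ≤ 2 := by
  have h := bf_self_nonneg (a - b)
  rw [norm_sub, ha, hb] at h
  omega

lemma eq_of_bf_eq_two (ha : bf a a = 2) (hb : bf b b = 2) (h : bf a b = 2) : a = b := by
  have h' : bf (a - b) (a - b) = 0 := by rw [norm_sub, ha, hb, h]; norm_num
  exact sub_eq_zero.1 (eq_zero_of_bf_self _ h')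

lemma neg_two_le_bf (ha : bf a a = 2) (hb : bf b b = 2) : -2 ≤ bf a b := by
  have h := bf_self_nonneg (a + b)
  rw [norm_add, ha, hb] at h
  omega

lemma eq_neg_of_bf_eq_neg_two (ha : bf a a = 2) (hb : bf b b = 2) (h : bf a b = -2) : a = -b := by
  have h' : bf (a + b) (a + b) = 0 := by rw [norm_add, ha, hb, h]; norm_num
  exact eq_neg_of_add_eq_zero_left (eq_zero_of_bf_self _ h')

lemma eq_of_neg_of_bf_eq_neg_two (ha : bf a a = 2) (hb : bf b b = 2) (h : bf a b = -2) : a = -b :=
  eq_neg_of_bf_eq_neg_two ha hb h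

lemma ne_zero_of_root (ha : bf a a = 2) : a ≠ 0 := by
  rintro rfl
  rw [bf_zero_left] at ha
  norm_num at ha

lemma neg_ne_self_of_root (ha : bf a a = 2) : -a ≠ a := by
  intro h
  have h2 : bf (-a) a = 2 := by rw [h, ha]
  rw [bf_neg_left, ha] at h2
  norm_num at h2

end roots

/-! ### Simple roots -/

/-- The simple roots: the standard basis. -/
def e (i : Fin 8) : Q := Pi.single i 1

lemma e_apply_same (i : Fin 8) : e i i = 1 := by simp [e]

lemma e_apply_ne {i j : Fin 8} (h : j ≠ i) : e i j = 0 := by simp [e, Pi.single_apply, h]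

/-- The Cartan matrix, as a decidable table. -/
def cartan (i j : Fin 8) : ℤ := bf (e i) (e j)

lemma bf_e_left (i : Fin 8) (u : Q) : bf (e i) u = 2 * u i - (if i = 0 then u 2 else 0) - (if i = 1 then u 3 else 0)
    - (if i = 2 then u 0 + u 3 else 0) - (if i = 3 then u 2 + u 4 + u 1 else 0) - (if i = 4 then u 3 + u 5 else 0)
    - (if i = 5 then u 4 + u 6 else 0) - (if i = 6 then u 5 + u 7 else 0) - (if i = 7 then u 6 else 0) := by
  fin_cases i <;> simp [bf, e, Pi.single_apply] <;> ring

lemma bf_e_e_self (i : Fin 8) : bf (e i) (e i) = 2 := by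
  fin_cases i <;> simp [bf, e, Pi.single_apply] <;> norm_num

/-- Every vector is the combination of the simple roots given by its coordinates. -/
lemma eq_sum_e (u : Q) : u = ∑ i, u i • e i := by
  funext j
  simp [e, Finset.sum_apply, Pi.single_apply]

/-- The bilinear form paired with a coordinate expansion. -/
lemma bf_eq_sum_right (x u : Q) : bf x u = ∑ i, u i * bf x (e i) := by
  conv_lhs => rw [eq_sum_e u]
  simp only [Fin.sum_univ_eight, bf_add_right, bf_smul_right]

/-- The vector with `bf ρ (e i) = 1`. -/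
def rho : Q := ![46, 68, 91, 135, 110, 84, 57, 29]

/-- The height of a vector, as a pairing with `rho`. -/
lemma bf_rho (u : Q) : bf u rho = u 0 + u 1 + u 2 + u 3 + u 4 + u 5 + u 6 + u 7 := by
  simp [bf, rho]; ring

lemma bf_rho_e (i : Fin 8) : bf (e i) rho = 1 := by
  fin_cases i <;> simp [bf, rho, e, Pi.single_apply]

lemma bf_rho_rho : bf rho rho = 620 := by
  simp [bf, rho]

/-- The fundamental coweight of the branch node. -/
def varpi : Q := ![10, 15, 20, 30, 24, 18, 12, 6]

lemma bf_varpi (u : Q) : bf u varpi = u 3 := by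
  simp [bf, varpi]; ring

/-- The highest root. -/
def hroot : Q := ![2, 3, 4, 6, 5, 4, 3, 2]

lemma bf_hroot : bf hroot hroot = 2 := by
  simp [bf, hroot]

lemma bf_hroot_varpi : bf hroot varpi = 6 := by
  simp [bf_varpi, hroot]

/-! ### Sign coherence -/

/-- All coordinates non-negative. -/
def Pos (u : Q) : Prop := ∀ i, 0 ≤ u i

lemma bf_posPart_negPart_le (u : Q) :
    bf (fun i => max (u i) 0) (fun i => max (- u i) 0) ≤ 0 := by
  have key : ∀ i j : Fin 8, 0 ≤ max (u i) 0 * max (- u j) 0 := fun i j =>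
    mul_nonneg (le_max_right _ _) (le_max_right _ _)
  have diag : ∀ i : Fin 8, max (u i) 0 * max (- u i) 0 = 0 := by
    intro i
    rcases le_total (u i) 0 with h | h
    · rw [max_eq_right h]; simp
    · rw [max_eq_right (by omega : - u i ≤ 0)]; simp
  simp only [bf, diag]
  have := key 0 2; have := key 2 0; have := key 2 3; have := key 3 2; have := key 3 4
  have := key 4 3; have := key 4 5; have := key 5 4; have := key 5 6; have := key 6 5
  have := key 6 7; have := key 7 6; have := key 1 3; have := key 3 1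
  omega

/-- Roots are positive or negative. -/
lemma pos_or_neg_of_root {u : Q} (hu : bf u u = 2) : Pos u ∨ Pos (-u) := by
  by_contra hcon
  push Not at hcon
  obtain ⟨h1, h2⟩ := hcon
  simp only [Pos] at h1 h2
  push Not at h1 h2
  obtain ⟨i, hi⟩ := h1
  obtain ⟨j, hj⟩ := h2
  set p : Q := fun i => max (u i) 0 with hp
  set m : Q := fun i => max (- u i) 0 with hm
  have hum : u = p - m := by
    funext k
    simp only [hp, hm, Pi.sub_apply]
    rcases le_total (u k) 0 with h | h
    · rw [max_eq_right h, max_eq_left (by omega : 0 ≤ - u k)]; ring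
    · rw [max_eq_left h, max_eq_right (by omega : - u k ≤ 0)]; ring
  have hp0 : p ≠ 0 := by
    intro h
    have := congrFun h j
    simp only [hp, Pi.zero_apply, Pi.neg_apply] at this hj
    have h3 : u j ≤ max (u j) 0 := le_max_left _ _
    omega
  have hm0 : m ≠ 0 := by
    intro h
    have := congrFun h i
    simp only [hm, Pi.zero_apply] at this
    have h3 : - u i ≤ max (- u i) 0 := le_max_left _ _
    omega
  have h1 := two_le_bf_self hp0
  have h2 := two_le_bf_self hm0
  have h3 := bf_posPart_negPart_le u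
  have h4 : bf u u = bf p p + bf m m - 2 * bf p m := by
    rw [hum, norm_sub]
  change bf p m ≤ 0 at h3
  omega

lemma pos_neg_not_both {u : Q} (hu : bf u u = 2) (h1 : Pos u) (h2 : Pos (-u)) : False := by
  apply ne_zero_of_root hu
  funext i
  have := h1 i
  have h3 := h2 i
  simp only [Pi.neg_apply] at h3
  simp only [Pi.zero_apply]
  omega

/-- The height of a positive root is at least one. -/
lemma one_le_height {u : Q} (hu : bf u u = 2) (h : Pos u) : 1 ≤ bf u rho := by
  rw [bf_rho]
  have hne := ne_zero_of_root hu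
  by_contra hcon
  apply hne
  have h0 := h 0; have h1 := h 1; have h2 := h 2; have h3 := h 3
  have h4 := h 4; have h5 := h 5; have h6 := h 6; have h7 := h 7
  funext i
  fin_cases i <;> simp <;> omega

lemma height_bounds {u : Q} (hu : bf u u = 2) : bf u rho ≤ 311 ∧ -311 ≤ bf u rho := by
  constructor
  · have := bf_self_nonneg (u - rho)
    rw [norm_sub, hu, bf_rho_rho] at this
    omega
  · have := bf_self_nonneg (u + rho)
    rw [norm_add, hu, bf_rho_rho] at this
    omega

/-! ### Reflections -/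

/-- The reflection in a root. -/
def srefl (a : Q) (u : Q) : Q := u - bf u a • a

lemma bf_srefl_srefl {a : Q} (ha : bf a a = 2) (u v : Q) : bf (srefl a u) (srefl a v) = bf u v := by
  simp only [srefl, bf_sub_left, bf_sub_right, bf_smul_left, bf_smul_right, ha, bf_comm a v]
  ring

lemma srefl_srefl {a : Q} (ha : bf a a = 2) (u : Q) : srefl a (srefl a u) = u := by
  simp only [srefl, bf_sub_left, bf_smul_left, ha]
  funext i
  simp only [Pi.sub_apply, Pi.smul_apply, smul_eq_mul]
  ring

/-- The reflection as an additive automorphism. -/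
def sreflE (a : Q) (ha : bf a a = 2) : Q ≃+ Q where
  toFun := srefl a
  invFun := srefl a
  left_inv := srefl_srefl ha
  right_inv := srefl_srefl ha
  map_add' x y := by
    simp only [srefl, bf_add_left]
    funext i
    simp only [Pi.add_apply, Pi.sub_apply, Pi.smul_apply, smul_eq_mul]
    ring

@[simp] lemma sreflE_apply (a : Q) (ha : bf a a = 2) (u : Q) : sreflE a ha u = u - bf u a • a := rfl

lemma srefl_self {a : Q} (ha : bf a a = 2) : srefl a a = -a := by
  simp only [srefl, ha]
  funext i
  simp only [Pi.sub_apply, Pi.smul_apply, smul_eq_mul, Pi.neg_apply]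
  ring

/-! ### Positivity under simple reflections -/

lemma pos_srefl_e {u : Q} (hu : bf u u = 2) (hp : Pos u) {i : Fin 8} (hne : u ≠ e i) :
    Pos (srefl (e i) u) := by
  have hroot' : bf (srefl (e i) u) (srefl (e i) u) = 2 := by
    rw [bf_srefl_srefl (bf_e_e_self i)]; exact hu
  have hcoord : ∀ j, j ≠ i → srefl (e i) u j = u j := by
    intro j hj
    simp [srefl, e_apply_ne hj]
  -- some coordinate away from `i` is positive
  have hex : ∃ j, j ≠ i ∧ 0 < u j := by
    by_contra hcon
    push Not at hcon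
    have hzero : ∀ j, j ≠ i → u j = 0 := fun j hj => le_antisymm (hcon j hj) (hp j)
    have hui : u = u i • e i := by
      funext j
      by_cases hj : j = i
      · subst hj; simp [e_apply_same]
      · simp [e_apply_ne hj, hzero j hj]
    have h2 : bf u u = u i * u i * 2 := by
      rw [hui]
      simp only [bf_smul_left, bf_smul_right, bf_e_e_self]
      simp only [Pi.smul_apply, e_apply_same, smul_eq_mul, mul_one]
      ring
    rw [hu] at h2
    have h3 : u i = 1 := by nlinarith [hp i]
    apply hne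
    rw [hui, h3, one_smul]
  obtain ⟨j, hj, hjpos⟩ := hex
  rcases pos_or_neg_of_root hroot' with h | h
  · exact h
  · exfalso
    have := h j
    simp only [Pi.neg_apply, hcoord j hj] at this
    omega

/-- Simple reflections lower the height of a positive non-simple root with positive pairing. -/
lemma height_srefl (u : Q) (i : Fin 8) : bf (srefl (e i) u) rho = bf u rho - bf u (e i) := by
  simp only [srefl, bf_sub_left, bf_smul_left, bf_rho_e]
  ring

/-- Some simple root has positive pairing with a root of positive height. -/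
lemma exists_pos_pairing {u : Q} (hu : bf u u = 2) (hp : Pos u) : ∃ i, 0 < u i ∧ 0 < bf u (e i) := by
  by_contra hcon
  push Not at hcon
  have hsum := bf_eq_sum_right u u
  rw [hu, Fin.sum_univ_eight] at hsum
  have key : ∀ i, u i * bf u (e i) ≤ 0 := by
    intro i
    rcases (hp i).lt_or_eq with h | h
    · exact mul_nonpos_of_nonneg_of_nonpos (hp i) (hcon i h)
    · rw [← h]; simp
  have := key 0; have := key 1; have := key 2; have := key 3
  have := key 4; have := key 5; have := key 6; have := key 7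
  omega

end Cfsg.Agent.Lib.E8Two
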