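import Mathlib
import Cfsg.Agent.Lib.E8TwoLat

/-!
# The `E₈` Lie algebra over `𝔽₂` and its root elements

The module is `LL = 𝔽₂^Φ ⊕ Q/2Q`, and `xF a` is the root element attached to a root `a`.
The relations are proved directly on coordinates.
-/

set_option autoImplicit false
set_option linter.unusedSimpArgs false
set_option linter.unusedTactic false
set_option linter.unreachableTactic false
set_option linter.style.longLine false
set_option linter.unusedVariables false

namespace Cfsg.Agent.Lib.E8Two

abbrev Rt := {u : Q // bf u u = 2}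
abbrev H8 := Fin 8 → ZMod 2
abbrev LL := (Rt → ZMod 2) × H8

/-- Reduction mod `2Q`. -/
def bar (u : Q) : H8 := fun i => ((u i : ℤ) : ZMod 2)

/-- The pairing of `Q/2Q` with `Q`. -/
def pr (φ : H8) (u : Q) : ZMod 2 :=
  φ 0 * (u 2 : ZMod 2) + φ 2 * (u 0 : ZMod 2) + φ 2 * (u 3 : ZMod 2) + φ 3 * (u 2 : ZMod 2)
    + φ 3 * (u 4 : ZMod 2) + φ 4 * (u 3 : ZMod 2) + φ 4 * (u 5 : ZMod 2) + φ 5 * (u 4 : ZMod 2)
    + φ 5 * (u 6 : ZMod 2) + φ 6 * (u 5 : ZMod 2) + φ 6 * (u 7 : ZMod 2) + φ 7 * (u 6 : ZMod 2)
    + φ 1 * (u 3 : ZMod 2) + φ 3 * (u 1 : ZMod 2)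

lemma bar_add (u w : Q) : bar (u + w) = bar u + bar w := by
  funext i; simp [bar]

lemma bar_neg (u : Q) : bar (-u) = bar u := by
  funext i
  simp only [bar, Pi.neg_apply, Int.cast_neg]
  generalize ((u i : ℤ) : ZMod 2) = x
  revert x; decide

lemma bar_sub (u w : Q) : bar (u - w) = bar u + bar w := by
  rw [sub_eq_add_neg, bar_add, bar_neg]

lemma bar_smul (k : ℤ) (u : Q) : bar (k • u) = ((k : ℤ) : ZMod 2) • bar u := by
  funext i; simp [bar]

lemma bar_surjective (φ : H8) : ∃ u, bar u = φ := by
  refine ⟨fun i => ((φ i).val : ℤ), ?_⟩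
  funext i
  simp [bar]

lemma pr_add_left (φ ψ : H8) (u : Q) : pr (φ + ψ) u = pr φ u + pr ψ u := by
  simp only [pr, Pi.add_apply]; ring

lemma pr_smul_left (k : ZMod 2) (φ : H8) (u : Q) : pr (k • φ) u = k * pr φ u := by
  simp only [pr, Pi.smul_apply, smul_eq_mul]; ring

lemma pr_add_right (φ : H8) (u w : Q) : pr φ (u + w) = pr φ u + pr φ w := by
  simp only [pr, Pi.add_apply, Int.cast_add]; ring

lemma pr_neg_right (φ : H8) (u : Q) : pr φ (-u) = pr φ u := by
  simp only [pr, Pi.neg_apply, Int.cast_neg]
  have h : ∀ x : ZMod 2, -x = x := by decide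
  simp only [h]

lemma pr_bar (w u : Q) : pr (bar w) u = ((bf w u : ℤ) : ZMod 2) := by
  simp only [pr, bar, bf]
  push_cast
  have h2 : (2 : ZMod 2) = 0 := rfl
  have hneg : ∀ x : ZMod 2, -x = x := by decide
  rw [h2, zero_mul, zero_sub, hneg]

lemma pr_eq_zero_of_forall (φ : H8) (h : ∀ i, pr φ (e i) = 0) : φ = 0 := by
  have h0 := h 0; have h1 := h 1; have h2 := h 2; have h3 := h 3
  have h4 := h 4; have h5 := h 5; have h6 := h 6; have h7 := h 7
  simp [pr, e, Pi.single_apply] at h0 h1 h2 h3 h4 h5 h6 h7
  have e2 : φ 2 = 0 := h0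
  have e3 : φ 3 = 0 := h1
  have e6 : φ 6 = 0 := h7
  have e0 : φ 0 = 0 := by simpa [e3] using h2
  have e5 : φ 5 = 0 := by simpa [e3] using h4
  have e7 : φ 7 = 0 := by simpa [e5] using h6
  have e4 : φ 4 = 0 := by simpa [e6] using h5
  have e1 : φ 1 = 0 := by simpa [e2, e4] using h3
  funext i
  fin_cases i
  · exact e0
  · exact e1
  · exact e2
  · exact e3
  · exact e4
  · exact e5
  · exact e6
  · exact e7

/-! ### Coordinates -/

/-- The coefficient of a vector `u` of `Q` in `v`; zero when `u` is not a root. -/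
def cf (v : LL) (u : Q) : ZMod 2 := if h : bf u u = 2 then v.1 ⟨u, h⟩ else 0

lemma cf_of_not {v : LL} {u : Q} (h : bf u u ≠ 2) : cf v u = 0 := dif_neg h

lemma cf_coe (v : LL) (g : Rt) : cf v (g : Q) = v.1 g := by
  simp only [cf]
  rw [dif_pos g.2]

lemma cf_add (v w : LL) (u : Q) : cf (v + w) u = cf v u + cf w u := by
  simp only [cf]
  split_ifs
  · rfl
  · simp

lemma cf_zero (u : Q) : cf 0 u = 0 := by
  simp only [cf]
  split_ifs
  · rfl
  · rfl

lemma LL_ext {v w : LL} (h : ∀ u, bf u u = 2 → cf v u = cf w u) (h2 : v.2 = w.2) : v = w := by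
  apply Prod.ext
  · funext g
    have := h g.1 g.2
    rwa [cf_coe, cf_coe] at this
  · exact h2

/-- The root element attached to `a`. -/
def xF (a : Q) (v : LL) : LL :=
  (fun g => v.1 g + (if (g : Q) = a then cf v (-a) + pr v.2 a
      else if bf (g : Q) a = 1 then cf v ((g : Q) - a) else 0),
    v.2 + cf v (-a) • bar a)

lemma xF_snd (a : Q) (v : LL) : (xF a v).2 = v.2 + cf v (-a) • bar a := rfl

lemma cf_xF (a u : Q) (v : LL) (hu : bf u u = 2) :
    cf (xF a v) u = cf v u + (if u = a then cf v (-a) + pr v.2 a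
      else if bf u a = 1 then cf v (u - a) else 0) := by
  simp only [cf, dif_pos hu]
  rfl

section
variable {a b u y : Q} (v : LL)

lemma cf_x_eq (ha : bf a a = 2) : cf (xF a v) a = cf v a + cf v (-a) + pr v.2 a := by
  rw [cf_xF a a v ha, if_pos rfl]; ring

lemma cf_x_one (ha : bf a a = 2) (hy : bf y y = 2) (h : bf y a = 1) :
    cf (xF a v) y = cf v y + cf v (y - a) := by
  have hne : y ≠ a := by
    rintro rfl
    rw [ha] at h; norm_num at h
  rw [cf_xF a y v hy, if_neg hne, if_pos h]

lemma cf_x_other (h1 : bf y a ≠ 1) (h2 : bf y a ≠ 2) (ha : bf a a = 2) :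
    cf (xF a v) y = cf v y := by
  by_cases hy : bf y y = 2
  · have hne : y ≠ a := by
      rintro rfl
      exact h2 ha
    rw [cf_xF a y v hy, if_neg hne, if_neg h1, add_zero]
  · rw [cf_of_not hy, cf_of_not hy]

lemma norm_sub_root (ha : bf a a = 2) (hy : bf y y = 2) (h : bf y a = 1) :
    bf (y - a) (y - a) = 2 := by
  rw [norm_sub, ha, hy, h]; norm_num

lemma norm_neg_root (ha : bf a a = 2) : bf (-a) (-a) = 2 := by
  rw [norm_neg, ha]

end

lemma xF_add (a : Q) (ha : bf a a = 2) (v w : LL) : xF a (v + w) = xF a v + xF a w := by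
  apply LL_ext
  · intro u hu
    rw [cf_add, cf_xF a u _ hu, cf_xF a u _ hu, cf_xF a u _ hu]
    simp only [cf_add, Prod.snd_add, pr_add_left]
    split_ifs <;> ring
  · simp only [xF_snd, Prod.snd_add, cf_add, add_smul]
    abel

/-- The square of a root element is the identity. -/
lemma xF_xF {a : Q} (ha : bf a a = 2) (v : LL) : xF a (xF a v) = v := by
  have hm : cf (xF a v) (-a) = cf v (-a) :=
    cf_x_other v (by rw [bf_neg_left, ha]; norm_num) (by rw [bf_neg_left, ha]; norm_num) ha
  have hz : ∀ x : ZMod 2, x + x = 0 := by decide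
  apply LL_ext
  · intro u hu
    by_cases h2 : bf u a = 2
    · have : u = a := eq_of_bf_eq_two hu ha h2
      subst this
      rw [cf_x_eq _ ha, cf_x_eq _ ha, hm, xF_snd, pr_add_left, pr_smul_left, pr_bar, ha]
      have h20 : (((2 : ℤ)) : ZMod 2) = 0 := rfl
      rw [h20, mul_zero, add_zero]
      linear_combination hz (cf v (-u)) + hz (pr v.2 u)
    · by_cases h1 : bf u a = 1
      · rw [cf_x_one _ ha hu h1, cf_x_one _ ha hu h1,
          cf_x_other v (y := u - a) (by rw [bf_sub_left, h1, ha]; norm_num)
            (by rw [bf_sub_left, h1, ha]; norm_num) ha]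
        grind
      · rw [cf_x_other _ h1 h2 ha, cf_x_other _ h1 h2 ha]
  · rw [xF_snd, xF_snd, hm, add_assoc, ← add_smul, hz, zero_smul, add_zero]

/-! ### Commutator relations -/

section comm
variable {a b : Q}

lemma pr_xF_snd (a b : Q) (v : LL) : pr (xF b v).2 a = pr v.2 a + cf v (-b) * ((bf b a : ℤ) : ZMod 2) := by
  rw [xF_snd, pr_add_left, pr_smul_left, pr_bar]

/-- The coordinate at `a` of the commutation relation for non-negative pairing. -/
lemma comm_coord_self (ha : bf a a = 2) (hb : bf b b = 2) (h01 : bf a b = 0 ∨ bf a b = 1) (v : LL) :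
    cf (xF a (xF b v)) a = cf (xF b (xF a v)) a := by
  have hba : bf b a = bf a b := bf_comm b a
  have hm1 : cf (xF b v) (-a) = cf v (-a) :=
    cf_x_other v (by rw [bf_neg_left]; omega) (by rw [bf_neg_left]; omega) hb
  rcases h01 with h | h
  · rw [cf_x_eq _ ha, hm1, pr_xF_snd, hba, h,
      cf_x_other (xF a v) (y := a) (by omega) (by omega) hb,
      cf_x_other v (y := a) (by omega) (by omega) hb, cf_x_eq _ ha]
    simp
  · have hr := norm_sub_root (a := b) (y := a) hb ha h
    rw [cf_x_eq _ ha, hm1, pr_xF_snd, hba, h,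
      cf_x_one (xF a v) hb ha h, cf_x_one v hb ha h, cf_x_eq _ ha,
      cf_x_one v (a := a) (y := a - b) ha hr (by rw [bf_sub_left, ha, hba, h]; norm_num)]
    have e1 : a - b - a = -b := by abel
    rw [e1]
    simp
    grind

/-- Root elements commute when the pairing is `0` or `1`. -/
lemma xF_comm (ha : bf a a = 2) (hb : bf b b = 2) (h01 : bf a b = 0 ∨ bf a b = 1) (v : LL) :
    xF a (xF b v) = xF b (xF a v) := by
  have hba : bf b a = bf a b := bf_comm b a
  have hm1 : cf (xF b v) (-a) = cf v (-a) :=
    cf_x_other v (by rw [bf_neg_left]; omega) (by rw [bf_neg_left]; omega) hb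
  have hm2 : cf (xF a v) (-b) = cf v (-b) :=
    cf_x_other v (by rw [bf_neg_left, bf_comm]; omega) (by rw [bf_neg_left, bf_comm]; omega) ha
  apply LL_ext
  · intro u hu
    by_cases hua : bf u a = 2
    · have : u = a := eq_of_bf_eq_two hu ha hua
      subst this
      exact comm_coord_self ha hb h01 v
    by_cases hub : bf u b = 2
    · have : u = b := eq_of_bf_eq_two hu hb hub
      subst this
      exact (comm_coord_self hb ha (by rw [bf_comm]; exact h01) v).symm
    have hle1 := bf_le_two hu ha
    have hle2 := bf_le_two hu hb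
    by_cases h1 : bf u a = 1
    · have hr1 := norm_sub_root ha hu h1
      by_cases h2 : bf u b = 1
      · have hr2 := norm_sub_root hb hu h2
        rw [cf_x_one (xF b v) ha hu h1, cf_x_one v hb hu h2, cf_x_one (xF a v) hb hu h2, cf_x_one v ha hu h1]
        rcases h01 with h | h
        · rw [cf_x_one v hb hr1 (by rw [bf_sub_left, h2, h]; norm_num),
            cf_x_one v ha hr2 (by rw [bf_sub_left, h1, hba, h]; norm_num)]
          have e1 : u - b - a = u - a - b := by abel
          rw [e1]
          grind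
        · rw [cf_x_other v (a := b) (y := u - a) (by rw [bf_sub_left, h2, h]; norm_num)
              (by rw [bf_sub_left, h2, h]; norm_num) hb,
            cf_x_other v (a := a) (y := u - b) (by rw [bf_sub_left, h1, hba, h]; norm_num)
              (by rw [bf_sub_left, h1, hba, h]; norm_num) ha]
          grind
      · rw [cf_x_one (xF b v) ha hu h1, cf_x_other (xF a v) h2 hub hb, cf_x_other v h2 hub hb, cf_x_one v ha hu h1,
          cf_x_other v (a := b) (y := u - a) (by rw [bf_sub_left]; omega) (by rw [bf_sub_left]; omega) hb]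
    · rw [cf_x_other (xF b v) h1 hua ha]
      by_cases h2 : bf u b = 1
      · have hr2 := norm_sub_root hb hu h2
        rw [cf_x_one v hb hu h2, cf_x_one (xF a v) hb hu h2, cf_x_other v h1 hua ha,
          cf_x_other v (a := a) (y := u - b) (by rw [bf_sub_left, hba]; omega) (by rw [bf_sub_left, hba]; omega) ha]
      · rw [cf_x_other v h2 hub hb, cf_x_other (xF a v) h2 hub hb, cf_x_other v h1 hua ha]
  · rw [xF_snd, xF_snd, xF_snd, xF_snd, hm1, hm2]
    abel


/-- The `A₂` relation `x_a x_b = x_b x_{a+b} x_a` when the pairing is `-1`. -/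
lemma xF_rel (ha : bf a a = 2) (hb : bf b b = 2) (ht : bf a b = -1) (v : LL) :
    xF a (xF b v) = xF b (xF (a + b) (xF a v)) := by
  have hba : bf b a = -1 := by rw [bf_comm]; exact ht
  have hc : bf (a + b) (a + b) = 2 := by rw [norm_add, ha, hb, ht]; norm_num
  have hca : bf (a + b) a = 1 := by rw [bf_add_left, ha, hba]; norm_num
  have hcb : bf (a + b) b = 1 := by rw [bf_add_left, hb, ht]; norm_num
  have hac : bf a (a + b) = 1 := by rw [bf_comm]; exact hca
  have hbc : bf b (a + b) = 1 := by rw [bf_comm]; exact hcb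
  have hna := norm_neg_root ha
  have hnb := norm_neg_root hb
  have hnc := norm_neg_root hc
  -- abbreviations for the intermediate vectors
  set w' := xF b v with hw'
  set w1 := xF a v with hw1
  set w2 := xF (a + b) w1 with hw2
  -- the coordinates at negatives
  have n1 : cf w' (-a) = cf v (-a) + cf v (-(a + b)) := by
    rw [hw', cf_x_one v hb hna (by rw [bf_neg_left, ht]; norm_num)]
    have : -a - b = -(a + b) := by abel
    rw [this]
  have n2 : cf w1 (-(a + b)) = cf v (-(a + b)) :=
    cf_x_other v (by rw [bf_neg_left, hca]; norm_num) (by rw [bf_neg_left, hca]; norm_num) ha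
  have n3 : cf w1 (-b) = cf v (-b) + cf v (-(a + b)) := by
    rw [hw1, cf_x_one v ha hnb (by rw [bf_neg_left, hba]; norm_num)]
    have : -b - a = -(a + b) := by abel
    rw [this]
  have n4 : cf w2 (-b) = cf w1 (-b) :=
    cf_x_other w1 (by rw [bf_neg_left, hbc]; norm_num) (by rw [bf_neg_left, hbc]; norm_num) hc
  have n5 : cf w1 (-a) = cf v (-a) :=
    cf_x_other v (by rw [bf_neg_left, ha]; norm_num) (by rw [bf_neg_left, ha]; norm_num) ha
  have pr_w1 : ∀ x, pr w1.2 x = pr v.2 x + cf v (-a) * ((bf a x : ℤ) : ZMod 2) := fun x => by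
    rw [hw1, pr_xF_snd]
  have pr_w' : ∀ x, pr w'.2 x = pr v.2 x + cf v (-b) * ((bf b x : ℤ) : ZMod 2) := fun x => by
    rw [hw', pr_xF_snd]
  have pr_w2 : ∀ x, pr w2.2 x = pr w1.2 x + cf w1 (-(a + b)) * ((bf (a + b) x : ℤ) : ZMod 2) := fun x => by
    rw [hw2, pr_xF_snd]
  apply LL_ext
  · intro u hu
    by_cases hua : bf u a = 2
    · -- `u = a`
      have : u = a := eq_of_bf_eq_two hu ha hua
      subst this
      rw [cf_x_eq w' ha, n1, pr_w', hba,
        cf_x_other w2 (a := b) (y := u) (by rw [ht]; norm_num) (by rw [ht]; norm_num) hb,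
        hw2, cf_x_one w1 hc hu hac,
        show u - (u + b) = -b by abel, n3, hw1, cf_x_eq v ha,
        hw', cf_x_other v (a := b) (y := u) (by rw [ht]; norm_num) (by rw [ht]; norm_num) hb]
      simp
      grind
    by_cases hub : bf u b = 2
    · -- `u = b`
      have : u = b := eq_of_bf_eq_two hu hb hub
      subst this
      rw [cf_x_other w' (a := a) (y := u) (by rw [hba]; norm_num) (by rw [hba]; norm_num) ha,
        hw', cf_x_eq v hb, cf_x_eq w2 hb, n4, n3, pr_w2, pr_w1, n2, ht, hcb,
        hw2, cf_x_one w1 hc hu hbc,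
        show u - (a + u) = -a by abel, n5, hw1,
        cf_x_other v (a := a) (y := u) (by rw [hba]; norm_num) (by rw [hba]; norm_num) ha]
      simp
      grind
    have hle1 := bf_le_two hu ha
    have hle2 := bf_le_two hu hb
    have hge1 := neg_two_le_bf hu ha
    have hge2 := neg_two_le_bf hu hb
    by_cases huc : bf u a + bf u b = 2
    · -- `u = a + b`
      have huc' : bf u (a + b) = 2 := by rw [bf_add_right]; exact huc
      have : u = a + b := eq_of_bf_eq_two hu hc huc'
      subst this
      rw [cf_x_one w' ha hc hca,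
        show a + b - a = b by abel,
        hw', cf_x_one v hb hc hcb, show a + b - b = a by abel,
        cf_x_eq v hb,
        cf_x_one w2 hb hc hcb, show a + b - b = a by abel, hw2, cf_x_eq w1 hc,
        cf_x_one w1 hc ha hac, show a - (a + b) = -b by abel, n2, n3, pr_w1, hac, hw1,
        cf_x_one v ha hc hca, show a + b - a = b by abel, cf_x_eq v ha, pr_add_right]
      simp
      grind
    -- the generic case
    have hr_sub : ∀ y, bf y y = 2 → bf y a ≤ 2 := fun y hy => bf_le_two hy ha
    by_cases h1 : bf u a = 1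
    · have hr1 := norm_sub_root ha hu h1
      by_cases h2 : bf u b = 0
      · -- `a₁ = 1, b₁ = 0`
        rw [cf_x_one w' ha hu h1,
          hw', cf_x_other v (a := b) (y := u) (by omega) (by omega) hb,
          cf_x_one v hb hr1 (by rw [bf_sub_left, h2, ht]; norm_num),
          cf_x_other w2 (a := b) (y := u) (by omega) (by omega) hb,
          hw2, cf_x_one w1 hc hu (by rw [bf_add_right]; omega),
          hw1, cf_x_one v ha hu h1,
          cf_x_other v (a := a) (y := u - (a + b)) (by rw [bf_sub_left, hca]; omega) (by rw [bf_sub_left, hca]; omega) ha,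
          show u - (a + b) = u - a - b by abel]
        grind
      · have hb2 : bf u b ≠ 1 := by omega
        rw [cf_x_one w' ha hu h1,
          hw', cf_x_other v (a := b) (y := u) hb2 hub hb,
          cf_x_other v (a := b) (y := u - a) (by rw [bf_sub_left, ht]; omega) (by rw [bf_sub_left, ht]; omega) hb,
          cf_x_other w2 (a := b) (y := u) hb2 hub hb,
          hw2, cf_x_other w1 (a := a + b) (y := u) (by rw [bf_add_right]; omega) (by rw [bf_add_right]; omega) hc,
          hw1, cf_x_one v ha hu h1]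
    · by_cases h2 : bf u b = 1
      · have hr2 := norm_sub_root hb hu h2
        by_cases h3 : bf u a = 0
        · -- `a₁ = 0, b₁ = 1`
          rw [cf_x_other w' (a := a) (y := u) h1 hua ha,
            hw', cf_x_one v hb hu h2,
            cf_x_one w2 hb hu h2,
            hw2, cf_x_one w1 hc hu (by rw [bf_add_right]; omega),
            cf_x_other w1 (a := a + b) (y := u - b) (by rw [bf_sub_left, hbc, bf_add_right]; omega)
              (by rw [bf_sub_left, hbc, bf_add_right]; omega) hc,
            hw1, cf_x_other v (a := a) (y := u) h1 hua ha,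
            cf_x_one v ha hr2 (by rw [bf_sub_left, hba]; omega),
            cf_x_other v (a := a) (y := u - (a + b)) (by rw [bf_sub_left, hca]; omega) (by rw [bf_sub_left, hca]; omega) ha,
            show u - (a + b) = u - b - a by abel]
          grind
        · rw [cf_x_other w' (a := a) (y := u) h1 hua ha,
            hw', cf_x_one v hb hu h2,
            cf_x_one w2 hb hu h2,
            hw2, cf_x_other w1 (a := a + b) (y := u) (by rw [bf_add_right]; omega) (by rw [bf_add_right]; omega) hc,
            cf_x_other w1 (a := a + b) (y := u - b) (by rw [bf_sub_left, hbc, bf_add_right]; omega)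
              (by rw [bf_sub_left, hbc, bf_add_right]; omega) hc,
            hw1, cf_x_other v (a := a) (y := u) h1 hua ha,
            cf_x_other v (a := a) (y := u - b) (by rw [bf_sub_left, hba]; omega) (by rw [bf_sub_left, hba]; omega) ha]
      · -- neither coordinate pairing is one
        have h3 : bf u a + bf u b ≠ 1 := by omega
        rw [cf_x_other w' (a := a) (y := u) h1 hua ha,
          hw', cf_x_other v (a := b) (y := u) h2 hub hb,
          cf_x_other w2 (a := b) (y := u) h2 hub hb,
          hw2, cf_x_other w1 (a := a + b) (y := u) (by rw [bf_add_right]; omega) (by rw [bf_add_right]; omega) hc,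
          hw1, cf_x_other v (a := a) (y := u) h1 hua ha]
  · -- the Cartan part
    rw [xF_snd, xF_snd, n1, xF_snd, n4, n3, xF_snd, n2, xF_snd, bar_add]
    have hz : ∀ x : ZMod 2, x + x = 0 := by decide
    funext i
    simp only [Pi.add_apply, Pi.smul_apply, smul_eq_mul]
    grind

end comm

/-! ### The Weyl elements -/

section weyl
variable {a : Q}

/-- The reflection operator on the module. -/
def rF (a : Q) (v : LL) : LL :=
  (fun g => cf v (srefl a (g : Q)), v.2 + pr v.2 a • bar a)

lemma rF_snd (a : Q) (v : LL) : (rF a v).2 = v.2 + pr v.2 a • bar a := rfl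

lemma cf_rF (a : Q) (v : LL) {u : Q} (hu : bf u u = 2) : cf (rF a v) u = cf v (srefl a u) := by
  simp only [cf, dif_pos hu]
  rfl

lemma xF_xF_xF (ha : bf a a = 2) (v : LL) : xF a (xF (-a) (xF a v)) = rF a v := by
  have hna := norm_neg_root ha
  have hnn : -(-a) = a := neg_neg a
  have baa : bf a (-a) = -2 := by rw [bf_neg_right, ha]
  have bna : bf (-a) a = -2 := by rw [bf_neg_left, ha]
  set w1 := xF a v with hw1
  set w2 := xF (-a) w1 with hw2
  have n1 : cf w1 (-a) = cf v (-a) :=
    cf_x_other v (by rw [bna]; norm_num) (by rw [bna]; norm_num) ha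
  have n2 : cf w1 a = cf v a + cf v (-a) + pr v.2 a := cf_x_eq v ha
  have pr1 : pr w1.2 a = pr v.2 a := by
    rw [hw1, pr_xF_snd, ha]
    have : ((2 : ℤ) : ZMod 2) = 0 := rfl
    rw [this, mul_zero, add_zero]
  have n3 : cf w2 (-a) = cf v (-a) + (cf v a + cf v (-a) + pr v.2 a) + pr v.2 a := by
    rw [hw2, cf_x_eq w1 hna, hnn, pr_neg_right, pr1, n1, n2]
  have n4 : cf w2 a = cf v a + cf v (-a) + pr v.2 a := by
    rw [← n2]
    exact cf_x_other w1 (by rw [baa]; norm_num) (by rw [baa]; norm_num) hna
  have pr2 : pr w2.2 a = pr v.2 a := by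
    rw [hw2, pr_xF_snd, bna, pr1]
    have : ((-2 : ℤ) : ZMod 2) = 0 := rfl
    rw [this, mul_zero, add_zero]
  apply LL_ext
  · intro u hu
    rw [cf_rF a v hu]
    by_cases hua : bf u a = 2
    · have : u = a := eq_of_bf_eq_two hu ha hua
      subst this
      rw [srefl_self ha, cf_x_eq w2 ha, n3, n4, pr2]
      grind
    by_cases huna : bf u a = -2
    · have : u = -a := eq_of_neg_of_bf_eq_neg_two hu ha huna
      subst this
      have hs : srefl a (-a) = a := by
        simp only [srefl, bna]
        funext i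
        simp only [Pi.sub_apply, Pi.neg_apply, Pi.smul_apply, smul_eq_mul]
        ring
      rw [hs, cf_x_other w2 (a := a) (y := -a) (by rw [bna]; norm_num) (by rw [bna]; norm_num) ha, n3]
      grind
    have hle := bf_le_two hu ha
    have hge := neg_two_le_bf hu ha
    by_cases h1 : bf u a = 1
    · have hr := norm_sub_root ha hu h1
      have hs : srefl a u = u - a := by
        simp only [srefl, h1, one_smul]
      rw [hs, cf_x_one w2 ha hu h1,
        hw2, cf_x_other w1 (a := -a) (y := u) (by rw [bf_neg_right, h1]; norm_num) (by rw [bf_neg_right, h1]; norm_num) hna,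
        cf_x_one w1 hna hr (by rw [bf_neg_right, bf_sub_left, h1, ha]; norm_num),
        show u - a - -a = u by abel,
        hw1, cf_x_one v ha hu h1,
        cf_x_other v (a := a) (y := u - a) (by rw [bf_sub_left, h1, ha]; norm_num) (by rw [bf_sub_left, h1, ha]; norm_num) ha]
      grind
    by_cases h2 : bf u a = -1
    · have hs : srefl a u = u + a := by
        simp only [srefl, h2, neg_smul, one_smul, sub_neg_eq_add]
      have hr : bf (u + a) (u + a) = 2 := by rw [norm_add, hu, ha, h2]; norm_num
      rw [hs, cf_x_other w2 (a := a) (y := u) h1 hua ha,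
        hw2, cf_x_one w1 hna hu (by rw [bf_neg_right, h2]; norm_num),
        show u - -a = u + a by abel,
        hw1, cf_x_other v (a := a) (y := u) h1 hua ha,
        cf_x_one v ha hr (by rw [bf_add_left, h2, ha]; norm_num),
        show u + a - a = u by abel]
      grind
    · have h0 : bf u a = 0 := by omega
      have hs : srefl a u = u := by
        simp only [srefl, h0, zero_smul, sub_zero]
      rw [hs, cf_x_other w2 (a := a) (y := u) h1 hua ha,
        hw2, cf_x_other w1 (a := -a) (y := u) (by rw [bf_neg_right, h0]; norm_num) (by rw [bf_neg_right, h0]; norm_num) hna,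
        hw1, cf_x_other v (a := a) (y := u) h1 hua ha]
  · rw [xF_snd, rF_snd, n3, hw2, xF_snd, hnn, n2, hw1, xF_snd, bar_neg]
    funext i
    simp only [Pi.add_apply, Pi.smul_apply, smul_eq_mul]
    grind

end weyl

end Cfsg.Agent.Lib.E8Two
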