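import Mathlib
import Cfsg.Agent.Lib.E8TwoMod

/-!
# The group generated by the `E₈` root elements over `𝔽₂`
-/

set_option autoImplicit false
set_option linter.unusedSimpArgs false
set_option linter.unusedTactic false
set_option linter.unreachableTactic false
set_option linter.style.longLine false
set_option linter.unusedVariables false

namespace Cfsg.Agent.Lib.E8Two

lemma sq_le_eight (x : ℤ) (h : x ^ 2 ≤ 8) : -2 ≤ x ∧ x ≤ 2 := by
  constructor <;> nlinarith

lemma root_bound {u : Q} (hu : bf u u = 2) : ∀ i, -100 ≤ u i ∧ u i ≤ 100 := by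
  have h := bf_self_sos u
  rw [hu] at h
  have s1 := sq_nonneg (u 0 + 2 * u 1 - 2 * u 2)
  have s2 := sq_nonneg (- u 0 + 2 * u 1 + 2 * u 2 - 2 * u 3)
  have s3 := sq_nonneg (- u 0 + 2 * u 3 - 2 * u 4)
  have s4 := sq_nonneg (- u 0 + 2 * u 4 - 2 * u 5)
  have s5 := sq_nonneg (- u 0 + 2 * u 5 - 2 * u 6)
  have s6 := sq_nonneg (- u 0 + 2 * u 6 - 2 * u 7)
  have s7 := sq_nonneg (- u 0 + 2 * u 7)
  have s8 := sq_nonneg (u 0)
  have b1 := sq_le_eight _ (show (u 0 + 2 * u 1 - 2 * u 2) ^ 2 ≤ 8 by linarith)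
  have b2 := sq_le_eight _ (show (- u 0 + 2 * u 1 + 2 * u 2 - 2 * u 3) ^ 2 ≤ 8 by linarith)
  have b3 := sq_le_eight _ (show (- u 0 + 2 * u 3 - 2 * u 4) ^ 2 ≤ 8 by linarith)
  have b4 := sq_le_eight _ (show (- u 0 + 2 * u 4 - 2 * u 5) ^ 2 ≤ 8 by linarith)
  have b5 := sq_le_eight _ (show (- u 0 + 2 * u 5 - 2 * u 6) ^ 2 ≤ 8 by linarith)
  have b6 := sq_le_eight _ (show (- u 0 + 2 * u 6 - 2 * u 7) ^ 2 ≤ 8 by linarith)
  have b7 := sq_le_eight _ (show (- u 0 + 2 * u 7) ^ 2 ≤ 8 by linarith)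
  have b8 := sq_le_eight _ (show (u 0) ^ 2 ≤ 8 by linarith)
  obtain ⟨b1a, b1b⟩ := b1
  obtain ⟨b2a, b2b⟩ := b2
  obtain ⟨b3a, b3b⟩ := b3
  obtain ⟨b4a, b4b⟩ := b4
  obtain ⟨b5a, b5b⟩ := b5
  obtain ⟨b6a, b6b⟩ := b6
  obtain ⟨b7a, b7b⟩ := b7
  obtain ⟨b8a, b8b⟩ := b8
  clear h s1 s2 s3 s4 s5 s6 s7 s8
  intro i
  fin_cases i
  · show -100 ≤ u 0 ∧ u 0 ≤ 100
    constructor <;> linarith
  · show -100 ≤ u 1 ∧ u 1 ≤ 100
    constructor <;> linarith
  · show -100 ≤ u 2 ∧ u 2 ≤ 100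
    constructor <;> linarith
  · show -100 ≤ u 3 ∧ u 3 ≤ 100
    constructor <;> linarith
  · show -100 ≤ u 4 ∧ u 4 ≤ 100
    constructor <;> linarith
  · show -100 ≤ u 5 ∧ u 5 ≤ 100
    constructor <;> linarith
  · show -100 ≤ u 6 ∧ u 6 ≤ 100
    constructor <;> linarith
  · show -100 ≤ u 7 ∧ u 7 ≤ 100
    constructor <;> linarith

instance finiteRt : Finite Rt := by
  have hfin : (Set.pi Set.univ (fun _ : Fin 8 => Set.Icc (-100 : ℤ) 100)).Finite :=
    Set.Finite.pi' (fun _ => Set.finite_Icc _ _) |>.subset (by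
      intro x hx i
      exact hx i (Set.mem_univ i))
  have hsub : {u : Q | bf u u = 2} ⊆ Set.pi Set.univ (fun _ : Fin 8 => Set.Icc (-100 : ℤ) 100) := by
    intro u hu i _
    exact root_bound hu i
  exact (hfin.subset hsub).to_subtype

instance finiteLL : Finite LL := by
  infer_instance

/-- A root element as a permutation of the module. -/
def XA (a : Rt) : Equiv.Perm LL where
  toFun := xF a.1
  invFun := xF a.1
  left_inv v := xF_xF a.2 v
  right_inv v := xF_xF a.2 v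

/-- The group generated by the root elements. -/
def G0 : Subgroup (Equiv.Perm LL) := Subgroup.closure (Set.range XA)

abbrev GE := ↥G0

instance finiteGE : Finite GE := by
  infer_instance

/-- The action of the group on the module. -/
def ac (g : GE) (v : LL) : LL := (g : Equiv.Perm LL) v

lemma ac_mul (g h : GE) (v : LL) : ac (g * h) v = ac g (ac h v) := rfl

lemma ac_one (v : LL) : ac 1 v = v := rfl

lemma ac_add (g : GE) (v w : LL) : ac g (v + w) = ac g v + ac g w := by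
  obtain ⟨g, hg⟩ := g
  show g (v + w) = g v + g w
  induction hg using Subgroup.closure_induction generalizing v w with
  | mem x hx =>
    obtain ⟨a, rfl⟩ := hx
    exact xF_add a.1 a.2 v w
  | one => rfl
  | mul x y _ _ hx hy =>
    show x (y (v + w)) = x (y v) + x (y w)
    rw [hy, hx]
  | inv x _ hx =>
    have h := hx (x⁻¹ v) (x⁻¹ w)
    have e1 : x (x⁻¹ v) = v := by simp
    have e2 : x (x⁻¹ w) = w := by simp
    rw [e1, e2] at h
    rw [← h]
    simp

lemma ac_zero (g : GE) : ac g 0 = 0 := by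
  have h := ac_add g 0 0
  rw [add_zero] at h
  exact left_eq_add.mp h

lemma ac_inv_ac (g : GE) (v : LL) : ac g⁻¹ (ac g v) = v := by
  rw [← ac_mul]; simp [ac_one]

lemma ac_ac_inv (g : GE) (v : LL) : ac g (ac g⁻¹ v) = v := by
  rw [← ac_mul]; simp [ac_one]

lemma ac_injective (g : GE) : Function.Injective (ac g) := fun v w h => by
  have := congrArg (ac g⁻¹) h
  rwa [ac_inv_ac, ac_inv_ac] at this

lemma GE_ext {g h : GE} (H : ∀ v, ac g v = ac h v) : g = h := by
  apply Subtype.ext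
  apply Equiv.ext
  exact H

/-- The root element attached to a vector; the identity when it is not a root. -/
def xq (u : Q) : GE :=
  if h : bf u u = 2 then ⟨XA ⟨u, h⟩, Subgroup.subset_closure ⟨⟨u, h⟩, rfl⟩⟩ else 1

lemma ac_xq {u : Q} (hu : bf u u = 2) (v : LL) : ac (xq u) v = xF u v := by
  simp only [xq, dif_pos hu]
  rfl

lemma xq_mul_self {a : Q} (ha : bf a a = 2) : xq a * xq a = 1 := by
  apply GE_ext
  intro v
  rw [ac_mul, ac_xq ha, ac_xq ha, xF_xF ha, ac_one]

lemma xq_inv {a : Q} (ha : bf a a = 2) : (xq a)⁻¹ = xq a :=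
  inv_eq_of_mul_eq_one_left (xq_mul_self ha)

lemma xq_comm {a b : Q} (ha : bf a a = 2) (hb : bf b b = 2) (h : 0 ≤ bf a b) :
    xq a * xq b = xq b * xq a := by
  have hle := bf_le_two ha hb
  by_cases h2 : bf a b = 2
  · rw [eq_of_bf_eq_two ha hb h2]
  · apply GE_ext
    intro v
    rw [ac_mul, ac_mul, ac_xq ha, ac_xq hb, ac_xq ha, ac_xq hb]
    exact xF_comm ha hb (by omega) v

lemma xq_rel {a b : Q} (ha : bf a a = 2) (hb : bf b b = 2) (ht : bf a b = -1) :
    xq a * xq b * xq a = xq b * xq (a + b) := by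
  have hc : bf (a + b) (a + b) = 2 := by rw [norm_add, ha, hb, ht]; norm_num
  have key : xq a * xq b = xq b * xq (a + b) * xq a := by
    apply GE_ext
    intro v
    rw [ac_mul, ac_mul, ac_mul, ac_xq ha, ac_xq hb, ac_xq ha, ac_xq hb, ac_xq hc]
    exact xF_rel ha hb ht v
  rw [key, mul_assoc, xq_mul_self ha, mul_one]

/-- The conjugate of a root element by a root element. -/
lemma xq_conj {a b : Q} (ha : bf a a = 2) (hb : bf b b = 2) (hne : b ≠ -a) :
    xq a * xq b * xq a = xq b ∨ (bf a b = -1 ∧ xq a * xq b * xq a = xq b * xq (a + b)) := by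
  have hge := neg_two_le_bf ha hb
  by_cases h0 : 0 ≤ bf a b
  · left
    rw [xq_comm ha hb h0, mul_assoc, xq_mul_self ha, mul_one]
  · have h1 : bf a b ≠ -2 := by
      intro h
      have := eq_neg_of_bf_eq_neg_two hb ha (by rw [bf_comm]; exact h)
      exact hne this
    right
    have ht : bf a b = -1 := by omega
    exact ⟨ht, xq_rel ha hb ht⟩

/-- The root elements generate the group. -/
lemma closure_xq : Subgroup.closure {g : GE | ∃ a, bf a a = 2 ∧ g = xq a} = ⊤ := by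
  have h := Subgroup.closure_closure_coe_preimage (k := Set.range XA)
  rw [eq_top_iff]
  have h' : (⊤ : Subgroup GE) = Subgroup.closure (((↑) : GE → Equiv.Perm LL) ⁻¹' Set.range XA) := h.symm
  rw [h']
  apply Subgroup.closure_mono
  rintro g ⟨a, ha⟩
  refine ⟨a.1, a.2, ?_⟩
  apply Subtype.ext
  simp only [xq, dif_pos a.2]
  exact ha.symm

/-- Induction along the closure of a set of involutions. -/
lemma closure_induction_invol {G : Type*} [Group G] {S : Set G} (hS : ∀ s ∈ S, s⁻¹ = s)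
    {P : G → Prop} (h1 : P 1) (hm : ∀ s ∈ S, ∀ g, P g → P (s * g)) {g : G}
    (hg : g ∈ Subgroup.closure S) : P g := by
  refine Subgroup.closure_induction_left (p := fun x _ => P x) h1 ?_ ?_ hg
  · intro x hx y _ hy
    exact hm x hx y hy
  · intro x hx y _ hy
    rw [hS x hx]
    exact hm x hx y hy

/-! ### Weyl elements -/

/-- The lift of a reflection. -/
def nn (a : Q) : GE := xq a * xq (-a) * xq a

lemma ac_nn {a : Q} (ha : bf a a = 2) (v : LL) : ac (nn a) v = rF a v := by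
  have hna := norm_neg_root ha
  simp only [nn]
  rw [ac_mul, ac_mul, ac_xq ha, ac_xq hna, ac_xq ha]
  exact xF_xF_xF ha v

/-- `w` acts on the module through the isometry `σ`. -/
structure Acts (w : GE) (σ : Q ≃+ Q) : Prop where
  iso : ∀ u v, bf (σ u) (σ v) = bf u v
  cf_eq : ∀ (v : LL) (u : Q), cf (ac w v) (σ u) = cf v u
  h_eq : ∀ (v : LL) (u : Q), v.2 = bar u → (ac w v).2 = bar (σ u)

lemma Acts.root {w : GE} {σ : Q ≃+ Q} (h : Acts w σ) {a : Q} (ha : bf a a = 2) :
    bf (σ a) (σ a) = 2 := by rw [h.iso, ha]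

lemma Acts.symm_iso {w : GE} {σ : Q ≃+ Q} (h : Acts w σ) (u v : Q) :
    bf (σ.symm u) (σ.symm v) = bf u v := by
  have := h.iso (σ.symm u) (σ.symm v)
  simpa using this.symm

lemma acts_one : Acts 1 (AddEquiv.refl Q) where
  iso _ _ := rfl
  cf_eq _ _ := rfl
  h_eq _ _ h := h

lemma Acts.mul {w w' : GE} {σ σ' : Q ≃+ Q} (h : Acts w σ) (h' : Acts w' σ') :
    Acts (w * w') (σ'.trans σ) where
  iso u v := by
    simp only [AddEquiv.trans_apply]
    rw [h.iso, h'.iso]
  cf_eq v u := by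
    simp only [AddEquiv.trans_apply]
    rw [ac_mul, h.cf_eq, h'.cf_eq]
  h_eq v u hv := by
    simp only [AddEquiv.trans_apply]
    rw [ac_mul]
    exact h.h_eq _ _ (h'.h_eq _ _ hv)

lemma bar_eq_zero {t : Q} (h : bar t = 0) : ∃ s : Q, t = (2 : ℤ) • s := by
  have h4 : ∀ i, (2 : ℤ) ∣ t i := by
    intro i
    have := congrFun h i
    simp only [bar, Pi.zero_apply] at this
    exact (ZMod.intCast_zmod_eq_zero_iff_dvd _ 2).1 this
  refine ⟨fun i => t i / 2, ?_⟩
  funext i
  simp only [Pi.smul_apply, smul_eq_mul]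
  have := h4 i
  omega

lemma bar_two_smul (s : Q) : bar ((2 : ℤ) • s) = 0 := by
  funext i
  simp only [bar, Pi.smul_apply, smul_eq_mul, Pi.zero_apply]
  push_cast
  have h2 : (2 : ZMod 2) = 0 := rfl
  rw [h2, zero_mul]

lemma bar_eq_of_bar_sub_eq_zero {x y : Q} (h : bar (x - y) = 0) : bar x = bar y := by
  rw [bar_sub] at h
  funext i
  have := congrFun h i
  simp only [Pi.add_apply, Pi.zero_apply] at this
  exact CharTwo.add_eq_zero.1 this

lemma bar_sub_eq_zero_of_bar_eq {x y : Q} (h : bar x = bar y) : bar (x - y) = 0 := by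
  rw [bar_sub, h]
  funext i
  simp only [Pi.add_apply, Pi.zero_apply]
  exact CharTwo.add_self_eq_zero _

lemma bar_map_of_bar_eq (σ : Q ≃+ Q) {x y : Q} (h : bar x = bar y) : bar (σ x) = bar (σ y) := by
  obtain ⟨s, hs⟩ := bar_eq_zero (bar_sub_eq_zero_of_bar_eq h)
  apply bar_eq_of_bar_sub_eq_zero
  rw [← map_sub, hs, map_zsmul]
  exact bar_two_smul _

lemma Acts.inv {w : GE} {σ : Q ≃+ Q} (h : Acts w σ) : Acts w⁻¹ σ.symm where
  iso u v := h.symm_iso u v
  cf_eq v u := by
    have := h.cf_eq (ac w⁻¹ v) (σ.symm u)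
    rw [ac_ac_inv] at this
    simpa using this.symm
  h_eq v u hv := by
    obtain ⟨y, hy⟩ := bar_surjective (ac w⁻¹ v).2
    have h1 := h.h_eq (ac w⁻¹ v) y hy.symm
    rw [ac_ac_inv, hv] at h1
    rw [← hy]
    have := bar_map_of_bar_eq σ.symm h1
    simp only [AddEquiv.symm_apply_apply] at this
    exact this.symm

lemma eq_one_of_acts {w : GE} (h : Acts w (AddEquiv.refl Q)) : w = 1 := by
  apply GE_ext
  intro v
  rw [ac_one]
  apply LL_ext
  · intro u _
    exact h.cf_eq v u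
  · obtain ⟨y, hy⟩ := bar_surjective v.2
    rw [← hy]
    exact h.h_eq v y hy.symm

lemma Acts.pr_eq {w : GE} {σ : Q ≃+ Q} (h : Acts w σ) (v : LL) (a : Q) :
    pr (ac w v).2 (σ a) = pr v.2 a := by
  obtain ⟨y, hy⟩ := bar_surjective v.2
  rw [h.h_eq v y hy.symm, ← hy, pr_bar, pr_bar, h.iso]

/-- Conjugating a root element by an element acting through an isometry. -/
lemma Acts.conj {w : GE} {σ : Q ≃+ Q} (h : Acts w σ) {a : Q} (ha : bf a a = 2) :
    w * xq a * w⁻¹ = xq (σ a) := by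
  have hsa := h.root ha
  apply GE_ext
  intro v
  rw [ac_mul, ac_mul, ac_xq ha, ac_xq hsa]
  obtain ⟨v', rfl⟩ : ∃ v', v = ac w v' := ⟨ac w⁻¹ v, (ac_ac_inv w v).symm⟩
  rw [ac_inv_ac]
  have hneg : - σ a = σ (-a) := (map_neg σ a).symm
  apply LL_ext
  · intro u hu
    obtain ⟨u₀, rfl⟩ : ∃ u₀, u = σ u₀ := ⟨σ.symm u, by simp⟩
    have hu₀ : bf u₀ u₀ = 2 := by rw [← h.iso, hu]
    rw [h.cf_eq, cf_xF a u₀ v' hu₀, cf_xF (σ a) (σ u₀) (ac w v') hu, h.cf_eq, hneg, h.cf_eq, h.pr_eq,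
      ← map_sub, h.cf_eq, h.iso]
    have hiff : (σ u₀ = σ a) ↔ u₀ = a := σ.injective.eq_iff
    simp only [hiff]
  · obtain ⟨y, hy⟩ := bar_surjective v'.2
    obtain ⟨k, hk⟩ : ∃ k : ℤ, (k : ZMod 2) = cf v' (-a) := ⟨(cf v' (-a)).val, by simp⟩
    have h1 : (xF a v').2 = bar (y + k • a) := by
      rw [xF_snd, bar_add, bar_smul, hy, hk]
    rw [h.h_eq _ _ h1, xF_snd, hneg, h.cf_eq, h.h_eq v' y hy.symm, map_add, map_zsmul, bar_add, bar_smul, hk]

/-- The reflection action of the element `nn a`. -/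
lemma acts_nn {a : Q} (ha : bf a a = 2) : Acts (nn a) (sreflE a ha) where
  iso u v := bf_srefl_srefl ha u v
  cf_eq v u := by
    by_cases hu : bf u u = 2
    · have hsu : bf (srefl a u) (srefl a u) = 2 := by rw [bf_srefl_srefl ha]; exact hu
      show cf (ac (nn a) v) (srefl a u) = cf v u
      rw [ac_nn ha, cf_rF a v hsu, srefl_srefl ha]
    · have hsu : bf (srefl a u) (srefl a u) ≠ 2 := by rw [bf_srefl_srefl ha]; exact hu
      show cf (ac (nn a) v) (srefl a u) = cf v u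
      rw [cf_of_not hsu, cf_of_not hu]
  h_eq v u hv := by
    rw [ac_nn ha, rF_snd, hv, pr_bar]
    show _ = bar (u - bf u a • a)
    rw [bar_sub, bar_smul]

lemma nn_mul_self {a : Q} (ha : bf a a = 2) : nn a * nn a = 1 := by
  apply eq_one_of_acts
  have h := (acts_nn ha).mul (acts_nn ha)
  have e : (sreflE a ha).trans (sreflE a ha) = AddEquiv.refl Q := by
    ext1 u
    exact srefl_srefl ha u
  rwa [e] at h

lemma nn_inv {a : Q} (ha : bf a a = 2) : (nn a)⁻¹ = nn a :=
  inv_eq_of_mul_eq_one_left (nn_mul_self ha)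

/-- `x_{-a} = x_a n_a x_a`. -/
lemma xq_neg_eq {a : Q} (ha : bf a a = 2) : xq (-a) = xq a * nn a * xq a := by
  simp only [nn]
  have h := xq_mul_self ha
  calc xq (-a) = (xq a * xq a) * xq (-a) * (xq a * xq a) := by rw [h]; simp
    _ = _ := by group

/-- Conjugation of a simple root element by its reflection. -/
lemma nn_conj_self {a : Q} (ha : bf a a = 2) : nn a * xq a * nn a = xq (-a) := by
  have h := (acts_nn ha).conj ha
  rw [nn_inv ha] at h
  rw [h]
  show xq (srefl a a) = _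
  rw [srefl_self ha]

/-! ### Simple root elements, the Weyl group -/

lemma e_root (i : Fin 8) : bf (e i) (e i) = 2 := bf_e_e_self i

/-- The group generated by the lifts of the simple reflections. -/
def NN : Subgroup GE := Subgroup.closure (Set.range fun i => nn (e i))

lemma nn_mem_NN (i : Fin 8) : nn (e i) ∈ NN := Subgroup.subset_closure ⟨i, rfl⟩

lemma exists_acts {w : GE} (hw : w ∈ NN) : ∃ σ, Acts w σ := by
  induction hw using Subgroup.closure_induction with
  | mem x hx =>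
    obtain ⟨i, rfl⟩ := hx
    exact ⟨_, acts_nn (e_root i)⟩
  | one => exact ⟨_, acts_one⟩
  | mul x y _ _ hx hy =>
    obtain ⟨σ, hσ⟩ := hx
    obtain ⟨τ, hτ⟩ := hy
    exact ⟨_, hσ.mul hτ⟩
  | inv x _ hx =>
    obtain ⟨σ, hσ⟩ := hx
    exact ⟨_, hσ.inv⟩

/-- Every positive root is in the Weyl orbit of a simple root. -/
lemma exists_weyl_pos : ∀ (n : ℕ) (a : Q), bf a a = 2 → Pos a → (bf a rho).toNat = n →
    ∃ w ∈ NN, ∃ σ, Acts w σ ∧ ∃ i, a = σ (e i) := by
  intro n
  induction n using Nat.strong_induction_on with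
  | _ n ih =>
    intro a ha hp hn
    by_cases hs : ∃ i, a = e i
    · obtain ⟨i, hi⟩ := hs
      exact ⟨1, one_mem _, _, acts_one, i, hi⟩
    · push Not at hs
      obtain ⟨i, hi1, hi2⟩ := exists_pos_pairing ha hp
      have hp' := pos_srefl_e ha hp (hs i)
      have hr' : bf (srefl (e i) a) (srefl (e i) a) = 2 := by rw [bf_srefl_srefl (e_root i)]; exact ha
      have hh := height_srefl a i
      have hh1 := one_le_height ha hp
      have hh2 := one_le_height hr' hp'
      obtain ⟨w, hw, σ, hσ, j, hj⟩ := ih _ (show (bf (srefl (e i) a) rho).toNat < n by omega) _ hr' hp' rfl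
      refine ⟨nn (e i) * w, mul_mem (nn_mem_NN i) hw, _, (acts_nn (e_root i)).mul hσ, j, ?_⟩
      simp only [AddEquiv.trans_apply, ← hj]
      exact (srefl_srefl (e_root i) a).symm

/-- Every root is in the Weyl orbit of a simple root. -/
lemma exists_weyl (a : Q) (ha : bf a a = 2) : ∃ w ∈ NN, ∃ σ, Acts w σ ∧ ∃ i, a = σ (e i) := by
  rcases pos_or_neg_of_root ha with h | h
  · exact exists_weyl_pos _ a ha h rfl
  · obtain ⟨w, hw, σ, hσ, j, hj⟩ := exists_weyl_pos _ (-a) (norm_neg_root ha) h rfl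
    refine ⟨w * nn (e j), mul_mem hw (nn_mem_NN j), _, hσ.mul (acts_nn (e_root j)), j, ?_⟩
    simp only [AddEquiv.trans_apply]
    show a = σ (srefl (e j) (e j))
    rw [srefl_self (e_root j), map_neg, ← hj, neg_neg]

/-! ### The parabolic-type subgroups -/

/-- The subgroup generated by the root elements of `μ`-grade at least `k`. -/
def Cn (μ : Q) (k : ℤ) : Subgroup GE :=
  Subgroup.closure {g | ∃ a, bf a a = 2 ∧ k ≤ bf a μ ∧ g = xq a}

lemma xq_mem_Cn {μ : Q} {k : ℤ} {a : Q} (ha : bf a a = 2) (h : k ≤ bf a μ) : xq a ∈ Cn μ k :=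
  Subgroup.subset_closure ⟨a, ha, h, rfl⟩

lemma Cn_mono {μ : Q} {k l : ℤ} (h : k ≤ l) : Cn μ l ≤ Cn μ k := by
  apply Subgroup.closure_mono
  rintro g ⟨a, ha, hb, rfl⟩
  exact ⟨a, ha, by omega, rfl⟩

lemma Cn_invol {μ : Q} {k : ℤ} : ∀ s ∈ {g | ∃ a, bf a a = 2 ∧ k ≤ bf a μ ∧ g = xq a}, s⁻¹ = s := by
  rintro g ⟨a, ha, hb, rfl⟩
  exact xq_inv ha

lemma map_Cn {w : GE} {σ : Q ≃+ Q} (h : Acts w σ) (μ : Q) (k : ℤ) :
    (Cn μ k).map (MulAut.conj w).toMonoidHom = Cn (σ μ) k := by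
  simp only [Cn]
  rw [MonoidHom.map_closure]
  congr 1
  ext g
  constructor
  · rintro ⟨g', ⟨a, ha, hb, rfl⟩, rfl⟩
    refine ⟨σ a, h.root ha, by rw [h.iso]; exact hb, ?_⟩
    simp only [MulEquiv.coe_toMonoidHom, MulAut.conj_apply]
    exact h.conj ha
  · rintro ⟨b, hb, hk, rfl⟩
    have hb' : bf (σ.symm b) (σ.symm b) = 2 := by rw [h.symm_iso]; exact hb
    refine ⟨xq (σ.symm b), ⟨σ.symm b, hb', ?_, rfl⟩, ?_⟩
    · have := h.iso (σ.symm b) μ
      simp only [AddEquiv.apply_symm_apply] at this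
      rw [← this]; exact hk
    · simp only [MulEquiv.coe_toMonoidHom, MulAut.conj_apply]
      rw [h.conj hb']
      simp

lemma conj_mem_Cn_of_mem {w : GE} {σ : Q ≃+ Q} (h : Acts w σ) {μ : Q} {k : ℤ} {y : GE} (hy : y ∈ Cn μ k) :
    w * y * w⁻¹ ∈ Cn (σ μ) k := by
  rw [← map_Cn h]
  exact ⟨y, hy, rfl⟩

/-- The generators of grade `≥ 0` normalize the subgroups of positive grade. -/
lemma conj_mem_Cn {μ : Q} {j : ℤ} (hj : 1 ≤ j) {p y : GE} (hp : p ∈ Cn μ 0) (hy : y ∈ Cn μ j) :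
    p * y * p⁻¹ ∈ Cn μ j := by
  refine closure_induction_invol (P := fun p => ∀ y, y ∈ Cn μ j → p * y * p⁻¹ ∈ Cn μ j) Cn_invol ?_ ?_ hp y hy
  · intro y hy
    simpa using hy
  · rintro s ⟨c, hc, hc0, rfl⟩ g hg y hy
    have key : xq c * (g * y * g⁻¹) * (xq c)⁻¹ ∈ Cn μ j := by
      have hgy := hg y hy
      generalize g * y * g⁻¹ = z at hgy ⊢
      induction hgy using Subgroup.closure_induction with
      | mem x hx =>
        obtain ⟨b, hb, hbj, rfl⟩ := hx
        rw [xq_inv hc]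
        have hne : b ≠ -c := by
          rintro rfl
          rw [bf_neg_left] at hbj
          omega
        rcases xq_conj hc hb hne with h | ⟨ht, h⟩
        · rw [h]; exact xq_mem_Cn hb hbj
        · rw [h]
          have hcb : bf (c + b) (c + b) = 2 := by rw [norm_add, hc, hb, ht]; norm_num
          exact mul_mem (xq_mem_Cn hb hbj) (xq_mem_Cn hcb (by rw [bf_add_left]; omega))
      | one => simp
      | mul a b _ _ ha hb =>
        have : xq c * (a * b) * (xq c)⁻¹ = (xq c * a * (xq c)⁻¹) * (xq c * b * (xq c)⁻¹) := by group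
        rw [this]
        exact mul_mem ha hb
      | inv a _ ha =>
        have : xq c * a⁻¹ * (xq c)⁻¹ = (xq c * a * (xq c)⁻¹)⁻¹ := by group
        rw [this]
        exact inv_mem ha
    have e : xq c * g * y * (xq c * g)⁻¹ = xq c * (g * y * g⁻¹) * (xq c)⁻¹ := by group
    rw [e]
    exact key

/-! ### The filtrations -/

/-- The `μ`-filtration of the module. -/
def Fil (μ : Q) (j : ℤ) (v : LL) : Prop :=
  (∀ u, bf u u = 2 → cf v u ≠ 0 → j ≤ bf u μ) ∧ (v.2 ≠ 0 → j ≤ 0)

lemma Fil_xF {μ : Q} {j : ℤ} {a : Q} (ha : bf a a = 2) (h0 : 0 ≤ bf a μ) {v : LL} (hv : Fil μ j v) :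
    Fil μ j (xF a v) := by
  have hneg : cf v (-a) ≠ 0 → j ≤ 0 := fun h => by
    have := hv.1 (-a) (norm_neg_root ha) h
    rw [bf_neg_left] at this
    omega
  constructor
  · intro u hu hne
    rw [cf_xF a u v hu] at hne
    by_cases h1 : cf v u = 0
    · rw [h1, zero_add] at hne
      split_ifs at hne with h2 h3
      · subst h2
        by_cases h4 : cf v (-u) = 0
        · rw [h4, zero_add] at hne
          have h5 : v.2 ≠ 0 := by
            rintro h6
            apply hne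
            rw [h6]
            simp [pr]
          have := hv.2 h5
          omega
        · have := hneg h4
          omega
      · have hr := norm_sub_root ha hu h3
        have := hv.1 _ hr hne
        rw [bf_sub_left] at this
        omega
      · exact absurd rfl hne
    · exact hv.1 u hu h1
  · intro hne
    rw [xF_snd] at hne
    by_cases h1 : v.2 = 0
    · rw [h1, zero_add] at hne
      by_cases h4 : cf v (-a) = 0
      · rw [h4, zero_smul] at hne
        exact absurd rfl hne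
      · exact hneg h4
    · exact hv.2 h1

lemma Fil_of_mem_Cn {μ : Q} {j : ℤ} {p : GE} (hp : p ∈ Cn μ 0) {v : LL} (hv : Fil μ j v) :
    Fil μ j (ac p v) := by
  refine closure_induction_invol (P := fun p => ∀ v, Fil μ j v → Fil μ j (ac p v)) Cn_invol ?_ ?_ hp v hv
  · intro v hv
    exact hv
  · rintro s ⟨c, hc, hc0, rfl⟩ g hg v hv
    rw [ac_mul, ac_xq hc]
    exact Fil_xF hc hc0 (hg v hv)

end Cfsg.Agent.Lib.E8Two
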