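import Mathlib
import Cfsg.Agent.Lib.E8TwoGrp

/-!
# Bruhat decomposition and the maximality of the branch-node parabolic
-/

set_option autoImplicit false
set_option linter.unusedSimpArgs false
set_option linter.unusedTactic false
set_option linter.unreachableTactic false
set_option linter.style.longLine false
set_option linter.unusedVariables false

namespace Cfsg.Agent.Lib.E8Two

/-- The unipotent subgroup. -/
def UU : Subgroup GE := Subgroup.closure {g | ∃ a, bf a a = 2 ∧ Pos a ∧ g = xq a}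

lemma xq_mem_UU {a : Q} (ha : bf a a = 2) (hp : Pos a) : xq a ∈ UU :=
  Subgroup.subset_closure ⟨a, ha, hp, rfl⟩

lemma pos_e (i : Fin 8) : Pos (e i) := by
  intro j
  by_cases h : j = i
  · subst h; rw [e_apply_same]; norm_num
  · rw [e_apply_ne h]

/-- The unipotent subgroup without the simple root `i`. -/
def UUi (i : Fin 8) : Subgroup GE := Subgroup.closure {g | ∃ a, bf a a = 2 ∧ Pos a ∧ a ≠ e i ∧ g = xq a}

lemma xq_mem_UUi {i : Fin 8} {a : Q} (ha : bf a a = 2) (hp : Pos a) (hne : a ≠ e i) : xq a ∈ UUi i :=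
  Subgroup.subset_closure ⟨a, ha, hp, hne, rfl⟩

lemma UUi_le (i : Fin 8) : UUi i ≤ UU := by
  apply Subgroup.closure_mono
  rintro g ⟨a, ha, hp, _, rfl⟩
  exact ⟨a, ha, hp, rfl⟩

lemma pos_add {a b : Q} (ha : Pos a) (hb : Pos b) : Pos (a + b) := fun i => by
  simp only [Pi.add_apply]
  exact add_nonneg (ha i) (hb i)

lemma not_neg_of_pos {a b : Q} (ha : bf a a = 2) (hpa : Pos a) (hpb : Pos b) : b ≠ -a := by
  rintro rfl
  exact pos_neg_not_both ha hpa hpb

lemma conj_xq_e_mem_UUi {i : Fin 8} {b : Q} (hb : bf b b = 2) (hp : Pos b) (hne : b ≠ e i) :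
    xq (e i) * xq b * xq (e i) ∈ UUi i := by
  have hi := e_root i
  rcases xq_conj hi hb (not_neg_of_pos hi (pos_e i) hp) with h | ⟨ht, h⟩
  · rw [h]; exact xq_mem_UUi hb hp hne
  · rw [h]
    have hc : bf (e i + b) (e i + b) = 2 := by rw [norm_add, hi, hb, ht]; norm_num
    refine mul_mem (xq_mem_UUi hb hp hne) (xq_mem_UUi hc (pos_add (pos_e i) hp) ?_)
    intro h0
    have : b = 0 := by simpa using h0
    exact ne_zero_of_root hb this

/-- Factorization of the unipotent group along a simple root. -/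
lemma exists_factor (i : Fin 8) {u : GE} (hu : u ∈ UU) :
    ∃ u' ∈ UUi i, u = u' ∨ u = u' * xq (e i) := by
  have hi := e_root i
  have step : ∀ x y : GE, y ∈ {g | ∃ a, bf a a = 2 ∧ Pos a ∧ g = xq a} →
      (∃ u' ∈ UUi i, x = u' ∨ x = u' * xq (e i)) → (∃ u' ∈ UUi i, x * y = u' ∨ x * y = u' * xq (e i)) := by
    rintro x _ ⟨b, hb, hp, rfl⟩ ⟨u', hu', hx⟩
    rcases hx with hx | hx
    · rw [hx]
      by_cases hbe : b = e i
      · rw [hbe]
        exact ⟨u', hu', Or.inr rfl⟩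
      · exact ⟨u' * xq b, mul_mem hu' (xq_mem_UUi hb hp hbe), Or.inl rfl⟩
    · rw [hx]
      by_cases hbe : b = e i
      · rw [hbe]
        exact ⟨u', hu', Or.inl (by rw [mul_assoc, xq_mul_self hi, mul_one])⟩
      · refine ⟨u' * (xq (e i) * xq b * xq (e i)), mul_mem hu' (conj_xq_e_mem_UUi hb hp hbe), Or.inr ?_⟩
        rw [mul_assoc u' (xq (e i) * xq b * xq (e i)), mul_assoc (xq (e i) * xq b), xq_mul_self hi, mul_one, mul_assoc]
  refine Subgroup.closure_induction_right (p := fun x _ => ∃ u' ∈ UUi i, x = u' ∨ x = u' * xq (e i))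
    ⟨1, one_mem _, Or.inl rfl⟩ ?_ ?_ hu
  · intro x _ y hy hx
    exact step x y hy hx
  · intro x _ y hy hx
    obtain ⟨b, hb, hp, rfl⟩ := hy
    rw [xq_inv hb]
    exact step x _ ⟨b, hb, hp, rfl⟩ hx

lemma nn_conj_UUi (i : Fin 8) {u : GE} (hu : u ∈ UUi i) : nn (e i) * u * (nn (e i))⁻¹ ∈ UUi i := by
  have hi := e_root i
  have hA := acts_nn hi
  have : (UUi i).map (MulAut.conj (nn (e i))).toMonoidHom ≤ UUi i := by
    simp only [UUi]
    rw [MonoidHom.map_closure, Subgroup.closure_le]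
    rintro _ ⟨_, ⟨a, ha, hp, hne, rfl⟩, rfl⟩
    simp only [MulEquiv.coe_toMonoidHom, MulAut.conj_apply]
    rw [hA.conj ha]
    have hsa : bf (srefl (e i) a) (srefl (e i) a) = 2 := by rw [bf_srefl_srefl hi]; exact ha
    have hp' : Pos (srefl (e i) a) := pos_srefl_e ha hp hne
    refine Subgroup.subset_closure ⟨srefl (e i) a, hsa, hp', ?_, rfl⟩
    intro h
    have h2 := congrArg (srefl (e i)) h
    rw [srefl_srefl hi, srefl_self hi] at h2
    exact not_neg_of_pos hi (pos_e i) hp h2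
  exact this ⟨u, hu, rfl⟩

/-- The Bruhat form of a group element. -/
def Bset (g : GE) : Prop := ∃ u₁ ∈ UU, ∃ w ∈ NN, ∃ u₂ ∈ UU, g = u₁ * w * u₂

lemma Bset_one : Bset 1 := ⟨1, one_mem _, 1, one_mem _, 1, one_mem _, by simp⟩

lemma Bset_pos {a : Q} (ha : bf a a = 2) (hp : Pos a) {g : GE} (hg : Bset g) : Bset (xq a * g) := by
  obtain ⟨u₁, h₁, w, hw, u₂, h₂, rfl⟩ := hg
  exact ⟨xq a * u₁, mul_mem (xq_mem_UU ha hp) h₁, w, hw, u₂, h₂, by group⟩

lemma Bset_nn (i : Fin 8) {g : GE} (hg : Bset g) : Bset (nn (e i) * g) := by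
  obtain ⟨u₁, h₁, w, hw, u₂, h₂, rfl⟩ := hg
  obtain ⟨u', hu', hfac⟩ := exists_factor i h₁
  obtain ⟨σ, hσ⟩ := exists_acts hw
  have hi := e_root i
  set n := nn (e i) with hn
  have hnn : n * n = 1 := nn_mul_self hi
  have hninv : n⁻¹ = n := nn_inv hi
  have hu'' : n * u' * n⁻¹ ∈ UU := UUi_le i (nn_conj_UUi i hu')
  have hnw : n * w ∈ NN := mul_mem (nn_mem_NN i) hw
  rcases hfac with rfl | rfl
  · exact ⟨_, hu'', _, hnw, u₂, h₂, by group⟩
  · set t := xq (e i) with ht
    set δ := σ.symm (e i) with hδ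
    have hδr : bf δ δ = 2 := by rw [hδ, hσ.symm_iso]; exact hi
    have hσδ : σ δ = e i := by simp [hδ]
    have hconj : w * xq δ * w⁻¹ = t := by rw [hσ.conj hδr, hσδ]
    have htw : t * w = w * xq δ := by rw [← hconj]; group
    rcases pos_or_neg_of_root hδr with hpos | hneg
    · refine ⟨_, hu'', _, hnw, xq δ * u₂, mul_mem (xq_mem_UU hδr hpos) h₂, ?_⟩
      calc n * (u' * t * w * u₂) = n * u' * (t * w) * u₂ := by group
        _ = n * u' * n⁻¹ * (n * w) * (xq δ * u₂) := by rw [htw]; group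
    · -- the long case
      set w' := n * w with hw'
      have hσ' : Acts w' (σ.trans (sreflE (e i) hi)) := (acts_nn hi).mul hσ
      have hnδ : bf (-δ) (-δ) = 2 := norm_neg_root hδr
      have hconj' : w' * xq (-δ) * w'⁻¹ = t := by
        rw [hσ'.conj hnδ]
        congr 1
        simp only [AddEquiv.trans_apply, map_neg, hσδ, sreflE_apply]
        have := srefl_self hi
        simp only [srefl] at this
        rw [this, neg_neg]
      have htw' : t * w' = w' * xq (-δ) := by rw [← hconj']; group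
      have hnt : n * t * n⁻¹ = t * n * t := by
        rw [hninv, hn, nn_conj_self hi, xq_neg_eq hi]
      have hww : n * w' = w := by rw [hw', ← mul_assoc, hnn, one_mul]
      refine ⟨n * u' * n⁻¹ * t, mul_mem hu'' (xq_mem_UU hi (pos_e i)), w, hw, xq (-δ) * u₂,
        mul_mem (xq_mem_UU hnδ hneg) h₂, ?_⟩
      calc n * (u' * t * w * u₂) = n * u' * n⁻¹ * (n * t * n⁻¹) * (n * w) * u₂ := by group
        _ = n * u' * n⁻¹ * (t * n * t) * w' * u₂ := by rw [hnt]
        _ = n * u' * n⁻¹ * t * n * (t * w') * u₂ := by group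
        _ = n * u' * n⁻¹ * t * (n * w') * (xq (-δ) * u₂) := by rw [htw']; group
        _ = _ := by rw [hww]

lemma Bset_NN {w : GE} (hw : w ∈ NN) {g : GE} (hg : Bset g) : Bset (w * g) := by
  have hS : ∀ s ∈ Set.range (fun i => nn (e i)), s⁻¹ = s := by
    rintro _ ⟨i, rfl⟩
    exact nn_inv (e_root i)
  refine closure_induction_invol (P := fun w => ∀ g, Bset g → Bset (w * g)) hS ?_ ?_ hw g hg
  · intro g hg
    simpa using hg
  · rintro _ ⟨i, rfl⟩ x hx g hg
    rw [mul_assoc]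
    exact Bset_nn i (hx g hg)

/-- The Bruhat decomposition `G = U N U`. -/
theorem Bset_all (g : GE) : Bset g := by
  have hg : g ∈ Subgroup.closure {g : GE | ∃ a, bf a a = 2 ∧ g = xq a} := by
    rw [closure_xq]; exact Subgroup.mem_top g
  have hS : ∀ s ∈ {g : GE | ∃ a, bf a a = 2 ∧ g = xq a}, s⁻¹ = s := by
    rintro _ ⟨a, ha, rfl⟩
    exact xq_inv ha
  refine closure_induction_invol (P := Bset) hS Bset_one ?_ hg
  rintro _ ⟨a, ha, rfl⟩ g hg
  obtain ⟨w, hw, σ, hσ, i, rfl⟩ := exists_weyl a ha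
  have hi := e_root i
  rw [← hσ.conj hi]
  have e1 : w * xq (e i) * w⁻¹ * g = w * (xq (e i) * (w⁻¹ * g)) := by group
  rw [e1]
  exact Bset_NN hw (Bset_pos hi (pos_e i) (Bset_NN (inv_mem hw) hg))

/-! ### The rigidity of the Dynkin diagram -/

/-- The adjacency relation of the `E₈` diagram. -/
def adjB (i j : Fin 8) : Bool :=
  match i.val, j.val with
  | 0, 2 | 2, 0 | 2, 3 | 3, 2 | 3, 4 | 4, 3 | 4, 5 | 5, 4 | 5, 6 | 6, 5 | 6, 7 | 7, 6 | 1, 3 | 3, 1 => true
  | _, _ => false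

/-- The Cartan matrix as a table. -/
def ctab (i j : Fin 8) : ℤ := if i = j then 2 else if adjB i j then -1 else 0

lemma bf_e_e (i j : Fin 8) : bf (e i) (e j) = ctab i j := by
  fin_cases i <;> fin_cases j <;> simp [bf, e, ctab, adjB, Pi.single_apply]

set_option synthInstance.maxSize 100000 in
set_option synthInstance.maxHeartbeats 0 in
set_option maxRecDepth 100000 in
lemma diagram_rigid_aux : ∀ p3 p2 : Fin 8, ctab p3 p2 = -1 →
    ∀ p4 : Fin 8, ctab p3 p4 = -1 ∧ ctab p2 p4 = 0 →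
    ∀ p1 : Fin 8, ctab p3 p1 = -1 ∧ ctab p2 p1 = 0 ∧ ctab p4 p1 = 0 →
    ∀ p0 : Fin 8, ctab p2 p0 = -1 ∧ ctab p3 p0 = 0 ∧ ctab p4 p0 = 0 ∧ ctab p1 p0 = 0 →
    ∀ p5 : Fin 8, ctab p4 p5 = -1 ∧ ctab p3 p5 = 0 ∧ ctab p2 p5 = 0 ∧ ctab p1 p5 = 0 ∧ ctab p0 p5 = 0 →
    ∀ p6 : Fin 8, ctab p5 p6 = -1 ∧ ctab p4 p6 = 0 ∧ ctab p3 p6 = 0 ∧ ctab p2 p6 = 0 ∧ ctab p1 p6 = 0 ∧ ctab p0 p6 = 0 →
    ∀ p7 : Fin 8, ctab p6 p7 = -1 ∧ ctab p5 p7 = 0 ∧ ctab p4 p7 = 0 ∧ ctab p3 p7 = 0 ∧ ctab p2 p7 = 0 ∧ ctab p1 p7 = 0 ∧ ctab p0 p7 = 0 →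
    p0 = 0 ∧ p1 = 1 ∧ p2 = 2 ∧ p3 = 3 ∧ p4 = 4 ∧ p5 = 5 ∧ p6 = 6 ∧ p7 = 7 := by
  decide +kernel

lemma diagram_rigid (π : Fin 8 → Fin 8) (h : ∀ i j, ctab (π i) (π j) = ctab i j) : ∀ i, π i = i := by
  have H := diagram_rigid_aux (π 3) (π 2) ((h _ _).trans (by decide)) (π 4)
    ⟨(h _ _).trans (by decide), (h _ _).trans (by decide)⟩ (π 1)
    ⟨(h _ _).trans (by decide), (h _ _).trans (by decide), (h _ _).trans (by decide)⟩ (π 0)
    ⟨(h _ _).trans (by decide), (h _ _).trans (by decide), (h _ _).trans (by decide), (h _ _).trans (by decide)⟩ (π 5)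
    ⟨(h _ _).trans (by decide), (h _ _).trans (by decide), (h _ _).trans (by decide), (h _ _).trans (by decide),
      (h _ _).trans (by decide)⟩ (π 6)
    ⟨(h _ _).trans (by decide), (h _ _).trans (by decide), (h _ _).trans (by decide), (h _ _).trans (by decide),
      (h _ _).trans (by decide), (h _ _).trans (by decide)⟩ (π 7)
    ⟨(h _ _).trans (by decide), (h _ _).trans (by decide), (h _ _).trans (by decide), (h _ _).trans (by decide),
      (h _ _).trans (by decide), (h _ _).trans (by decide), (h _ _).trans (by decide)⟩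
  obtain ⟨h0, h1, h2, h3, h4, h5, h6, h7⟩ := H
  intro i
  fin_cases i
  · exact h0
  · exact h1
  · exact h2
  · exact h3
  · exact h4
  · exact h5
  · exact h6
  · exact h7

/-- A positive vector of height one is a simple root. -/
lemma eq_e_of_height_one {u : Q} (hp : Pos u) (h : bf u rho = 1) : ∃ j, u = e j := by
  rw [bf_rho] at h
  have h0 := hp 0; have h1 := hp 1; have h2 := hp 2; have h3 := hp 3
  have h4 := hp 4; have h5 := hp 5; have h6 := hp 6; have h7 := hp 7
  have key : ∀ j, u j = 1 → (∀ k, k ≠ j → u k = 0) → u = e j := by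
    intro j hj hk
    funext k
    by_cases hkj : k = j
    · subst hkj; rw [hj, e_apply_same]
    · rw [hk k hkj, e_apply_ne hkj]
  have hor : u 0 = 1 ∨ u 1 = 1 ∨ u 2 = 1 ∨ u 3 = 1 ∨ u 4 = 1 ∨ u 5 = 1 ∨ u 6 = 1 ∨ u 7 = 1 := by omega
  have hall : ∀ j : Fin 8, u j = 1 → ∃ j, u = e j := by
    intro j hj
    refine ⟨j, key j hj ?_⟩
    intro k hk
    revert hk
    fin_cases j <;> fin_cases k <;> simp <;> simp at hj <;> omega
  rcases hor with h | h | h | h | h | h | h | h
  · exact hall 0 h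
  · exact hall 1 h
  · exact hall 2 h
  · exact hall 3 h
  · exact hall 4 h
  · exact hall 5 h
  · exact hall 6 h
  · exact hall 7 h

/-- The isometry attached to a Weyl element keeping all simple roots positive is trivial. -/
lemma acts_eq_one_of_pos {w : GE} {σ : Q ≃+ Q} (hσ : Acts w σ) (hp : ∀ i, Pos (σ (e i))) : w = 1 := by
  have hroot : ∀ i, bf (σ (e i)) (σ (e i)) = 2 := fun i => hσ.root (e_root i)
  have hh : ∀ i, 1 ≤ bf (σ (e i)) rho := fun i => one_le_height (hroot i) (hp i)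
  -- expand `σ rho`
  have hexp : bf (σ rho) rho = 46 * bf (σ (e 0)) rho + 68 * bf (σ (e 1)) rho + 91 * bf (σ (e 2)) rho
      + 135 * bf (σ (e 3)) rho + 110 * bf (σ (e 4)) rho + 84 * bf (σ (e 5)) rho + 57 * bf (σ (e 6)) rho
      + 29 * bf (σ (e 7)) rho := by
    have h1 : rho = ∑ i, rho i • e i := eq_sum_e rho
    have h2 : σ rho = ∑ i, rho i • σ (e i) := by
      conv_lhs => rw [h1]
      rw [map_sum]
      simp only [map_zsmul]
    rw [h2, Fin.sum_univ_eight]
    simp only [bf_add_left, bf_smul_left]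
    simp [rho]
  have hcs : bf (σ rho) rho ≤ 620 := by
    have h := bf_self_nonneg (σ rho - rho)
    rw [norm_sub, hσ.iso, bf_rho_rho] at h
    omega
  have h0 := hh 0; have h1 := hh 1; have h2 := hh 2; have h3 := hh 3
  have h4 := hh 4; have h5 := hh 5; have h6 := hh 6; have h7 := hh 7
  have hone : ∀ i, bf (σ (e i)) rho = 1 := by
    intro i
    fin_cases i <;> simp only [Fin.zero_eta, Fin.mk_one, Fin.reduceFinMk] <;> omega
  have hex : ∀ i, ∃ j, σ (e i) = e j := fun i => eq_e_of_height_one (hp i) (hone i)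
  choose π hπ using hex
  have hdiag : ∀ i j, ctab (π i) (π j) = ctab i j := by
    intro i j
    rw [← bf_e_e, ← bf_e_e, ← hπ, ← hπ, hσ.iso]
  have hid := diagram_rigid π hdiag
  have hfix : ∀ i, σ (e i) = e i := fun i => by rw [hπ, hid]
  have hσid : σ = AddEquiv.refl Q := by
    ext1 u
    simp only [AddEquiv.refl_apply]
    conv_lhs => rw [eq_sum_e u]
    rw [map_sum]
    simp only [map_zsmul, hfix]
    exact (eq_sum_e u).symm
  rw [hσid] at hσ
  exact eq_one_of_acts hσ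

/-! ### Maximality -/

lemma UU_le_Cn : UU ≤ Cn varpi 0 := by
  apply Subgroup.closure_le _ |>.2
  rintro _ ⟨a, ha, hp, rfl⟩
  exact xq_mem_Cn ha (by rw [bf_varpi]; exact hp 3)

lemma xq_e_mem_Cn (i : Fin 8) : xq (e i) ∈ Cn varpi 0 :=
  UU_le_Cn (xq_mem_UU (e_root i) (pos_e i))

lemma nn_e_mem_Cn {i : Fin 8} (hi : i ≠ 3) : nn (e i) ∈ Cn varpi 0 := by
  have h0 : e i 3 = 0 := e_apply_ne hi.symm
  have h1 : xq (-(e i)) ∈ Cn varpi 0 :=
    xq_mem_Cn (norm_neg_root (e_root i)) (by rw [bf_varpi]; simp [h0])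
  exact mul_mem (mul_mem (xq_e_mem_Cn i) h1) (xq_e_mem_Cn i)

/-- Descent: a Weyl element in an overgroup of `U` not containing `n₃` lies in the parabolic. -/
lemma descent (H : Subgroup GE) (hU : UU ≤ H) (h3 : nn (e 3) ∉ H) :
    ∀ (n : ℕ) (w : GE) (σ : Q ≃+ Q), Acts w σ → w ∈ NN → w ∈ H → (620 - bf (σ rho) rho).toNat = n →
      w ∈ Cn varpi 0 := by
  intro n
  induction n using Nat.strong_induction_on with
  | _ n ih =>
    intro w σ hσ hwN hwH hn
    by_cases hd : ∃ i, ¬ Pos (σ.symm (e i))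
    · obtain ⟨i, hi⟩ := hd
      have hei := e_root i
      set δ := σ.symm (e i) with hδ
      have hδr : bf δ δ = 2 := by rw [hδ, hσ.symm_iso]; exact hei
      have hneg : Pos (-δ) := by
        rcases pos_or_neg_of_root hδr with h | h
        · exact absurd h hi
        · exact h
      have hnδ := norm_neg_root hδr
      have hσδ : σ δ = e i := by simp [hδ]
      have h1 : xq (-(e i)) ∈ H := by
        have h2 := hσ.conj hnδ
        rw [map_neg, hσδ] at h2
        rw [← h2]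
        exact mul_mem (mul_mem hwH (hU (xq_mem_UU hnδ hneg))) (inv_mem hwH)
      have hxe : xq (e i) ∈ H := hU (xq_mem_UU hei (pos_e i))
      have hnH : nn (e i) ∈ H := mul_mem (mul_mem hxe h1) hxe
      have hi3 : i ≠ 3 := by
        rintro rfl
        exact h3 hnH
      have hnM := nn_e_mem_Cn hi3
      have hσ' : Acts (nn (e i) * w) (σ.trans (sreflE (e i) hei)) := (acts_nn hei).mul hσ
      have hval : bf ((σ.trans (sreflE (e i) hei)) rho) rho = bf (σ rho) rho - bf δ rho := by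
        simp only [AddEquiv.trans_apply, sreflE_apply, bf_sub_left, bf_smul_left, bf_rho_e]
        have h2 : bf (σ rho) (e i) = bf δ rho := by
          rw [← hσδ, hσ.iso, bf_comm]
        rw [h2]; ring
      have hht : 1 ≤ bf (-δ) rho := one_le_height hnδ hneg
      rw [bf_neg_left] at hht
      have hcs : bf ((σ.trans (sreflE (e i) hei)) rho) rho ≤ 620 := by
        have h := bf_self_nonneg ((σ.trans (sreflE (e i) hei)) rho - rho)
        rw [norm_sub, hσ'.iso, bf_rho_rho] at h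
        omega
      have hlt : (620 - bf ((σ.trans (sreflE (e i) hei)) rho) rho).toNat < n := by
        rw [← hn]; omega
      have := ih _ hlt (nn (e i) * w) _ hσ' (mul_mem (nn_mem_NN i) hwN) (mul_mem hnH hwH) rfl
      have e1 : w = nn (e i) * (nn (e i) * w) := by
        rw [← mul_assoc, nn_mul_self hei, one_mul]
      rw [e1]
      exact mul_mem hnM this
    · push Not at hd
      have : w⁻¹ = 1 := acts_eq_one_of_pos hσ.inv hd
      have hw1 : w = 1 := by simpa using this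
      rw [hw1]
      exact one_mem _

/-- A basis vector. -/
def ee (a : Q) : LL := (fun g => if (g : Q) = a then 1 else 0, 0)

lemma cf_ee {a : Q} (ha : bf a a = 2) (u : Q) : cf (ee a) u = if u = a then 1 else 0 := by
  by_cases hu : bf u u = 2
  · simp only [cf, dif_pos hu]
    rfl
  · rw [cf_of_not hu, if_neg]
    rintro rfl
    exact hu ha

lemma ee_snd (a : Q) : (ee a).2 = 0 := rfl

lemma e3_not_mem : xq (-(e 3)) ∉ Cn varpi 0 := by
  intro hmem
  have hi := e_root 3
  have hv : Fil varpi 1 (ee (e 3)) := by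
    constructor
    · intro u hu hne
      rw [cf_ee hi] at hne
      by_cases h : u = e 3
      · subst h
        rw [bf_varpi, e_apply_same]
      · rw [if_neg h] at hne
        exact absurd rfl hne
    · intro h
      exact absurd (ee_snd _) h
  have h2 := (Fil_of_mem_Cn hmem hv).1 (-(e 3)) (norm_neg_root hi)
  rw [ac_xq (norm_neg_root hi), cf_x_eq _ (norm_neg_root hi), neg_neg, cf_ee hi, cf_ee hi, ee_snd] at h2
  have hne3 : -(e 3) ≠ e 3 := neg_ne_self_of_root hi
  rw [if_neg hne3, if_pos rfl] at h2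
  have h3 := h2 (by simp [pr])
  rw [bf_varpi] at h3
  simp [e_apply_same] at h3

/-- The branch-node parabolic is a maximal subgroup. -/
theorem isCoatom_Cn : IsCoatom (Cn varpi 0) := by
  constructor
  · intro h
    apply e3_not_mem
    rw [h]
    exact Subgroup.mem_top _
  · intro H hlt
    obtain ⟨hle, h, hhH, hhM⟩ := SetLike.lt_iff_le_and_exists.1 hlt
    have hU : UU ≤ H := UU_le_Cn.trans hle
    obtain ⟨u₁, h₁, w, hw, u₂, h₂, rfl⟩ := Bset_all h
    have hwH : w ∈ H := by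
      have e1 : w = u₁⁻¹ * (u₁ * w * u₂) * u₂⁻¹ := by group
      rw [e1]
      exact mul_mem (mul_mem (inv_mem (hU h₁)) hhH) (inv_mem (hU h₂))
    have hwM : w ∉ Cn varpi 0 := by
      intro hm
      exact hhM (mul_mem (mul_mem (UU_le_Cn h₁) hm) (UU_le_Cn h₂))
    have hn3 : nn (e 3) ∈ H := by
      by_contra hcon
      obtain ⟨σ, hσ⟩ := exists_acts hw
      exact hwM (descent H hU hcon _ w σ hσ hw hwH rfl)
    have hNN : NN ≤ H := by
      apply (Subgroup.closure_le _).2
      rintro _ ⟨i, rfl⟩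
      by_cases hi : i = 3
      · subst hi; exact hn3
      · exact hle (nn_e_mem_Cn hi)
    rw [eq_top_iff, ← closure_xq, Subgroup.closure_le]
    rintro _ ⟨a, ha, rfl⟩
    obtain ⟨v, hv, σ, hσ, i, rfl⟩ := exists_weyl a ha
    rw [← hσ.conj (e_root i)]
    exact mul_mem (mul_mem (hNN hv) (hU (xq_mem_UU (e_root i) (pos_e i)))) (inv_mem (hNN hv))

end Cfsg.Agent.Lib.E8Two
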