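import Mathlib
import Cfsg.Agent.Lib.E8TwoBru

/-!
# The chain of iterated cores for the branch-node parabolic of `E₈(2)`
-/

set_option autoImplicit false
set_option linter.unusedSimpArgs false
set_option linter.unusedTactic false
set_option linter.unreachableTactic false
set_option linter.style.longLine false
set_option linter.unusedVariables false

namespace Cfsg.Agent.Lib.E8Two

section generalCore

variable {G : Type*} [Group G]

/-- The core in `M` of `Y`, as a subgroup of the ambient group. -/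
def coreIn (M Y : Subgroup G) : Subgroup G := ((Y.subgroupOf M).normalCore).map M.subtype

lemma coreIn_le_left (M Y : Subgroup G) : coreIn M Y ≤ M := Subgroup.map_subtype_le _

lemma coreIn_le_right (M Y : Subgroup G) : coreIn M Y ≤ Y := by
  rintro _ ⟨z, hz, rfl⟩
  have := Subgroup.normalCore_le _ hz
  exact Subgroup.mem_subgroupOf.1 this

lemma conj_mem_coreIn {M Y : Subgroup G} {p y : G} (hp : p ∈ M) (hy : y ∈ coreIn M Y) :
    p * y * p⁻¹ ∈ coreIn M Y := by
  obtain ⟨z, hz, rfl⟩ := hy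
  have hn : ((Y.subgroupOf M).normalCore).Normal := inferInstance
  have := hn.conj_mem z hz ⟨p, hp⟩
  exact ⟨_, this, rfl⟩

lemma le_coreIn {M Y K : Subgroup G} (h1 : K ≤ M) (h2 : K ≤ Y) (h3 : ∀ p ∈ M, ∀ y ∈ K, p * y * p⁻¹ ∈ K) :
    K ≤ coreIn M Y := by
  intro y hy
  have hn : (K.subgroupOf M).Normal := by
    constructor
    intro z hz p
    exact Subgroup.mem_subgroupOf.2 (h3 p p.2 z (Subgroup.mem_subgroupOf.1 hz))
  have hle : K.subgroupOf M ≤ (Y.subgroupOf M).normalCore :=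
    Subgroup.normal_le_normalCore.2 (fun z hz => Subgroup.mem_subgroupOf.2 (h2 (Subgroup.mem_subgroupOf.1 hz)))
  exact ⟨⟨y, h1 hy⟩, hle (Subgroup.mem_subgroupOf.2 hy), rfl⟩

/-- The pair of chains of iterated cores. -/
def coreChain (M₁ M₂ : Subgroup G) : ℕ → Subgroup G × Subgroup G
  | 0 => (M₁, M₂)
  | n + 1 => (coreIn M₁ ((coreChain M₁ M₂ n).1 ⊓ (coreChain M₁ M₂ n).2),
      coreIn M₂ ((coreChain M₁ M₂ n).1 ⊓ (coreChain M₁ M₂ n).2))

/-- A factorization along one involution. -/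
lemma factor_aux {S : Set G} (hS : ∀ s ∈ S, s⁻¹ = s) {K : Subgroup G} {x : G} (hx : x * x = 1)
    (hk : ∀ s ∈ S, s = x ∨ (s ∈ K ∧ x * s * x ∈ K)) {u : G} (hu : u ∈ Subgroup.closure S) :
    ∃ t ∈ K, u = t ∨ u = t * x := by
  have step : ∀ y s : G, s ∈ S → (∃ t ∈ K, y = t ∨ y = t * x) → ∃ t ∈ K, y * s = t ∨ y * s = t * x := by
    rintro y s hs ⟨t, ht, hy⟩
    rcases hk s hs with hsx | ⟨hsK, hconj⟩
    · rw [hsx]
      rcases hy with rfl | rfl
      · exact ⟨y, ht, Or.inr rfl⟩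
      · exact ⟨t, ht, Or.inl (by rw [mul_assoc, hx, mul_one])⟩
    · rcases hy with rfl | rfl
      · exact ⟨y * s, mul_mem ht hsK, Or.inl rfl⟩
      · refine ⟨t * (x * s * x), mul_mem ht hconj, Or.inr ?_⟩
        rw [mul_assoc t (x * s * x), mul_assoc (x * s), hx, mul_one, mul_assoc]
  refine Subgroup.closure_induction_right (p := fun y _ => ∃ t ∈ K, y = t ∨ y = t * x)
    ⟨1, one_mem _, Or.inl rfl⟩ ?_ ?_ hu
  · intro y _ s hs hy
    exact step y s hs hy
  · intro y _ s hs hy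
    rw [hS s hs]
    exact step y s hs hy

end generalCore

/-! ### The grading vectors -/

/-- The conjugate grading. -/
def mu : Q := varpi - e 3

lemma bf_varpi_e3 : bf varpi (e 3) = 1 := by
  rw [bf_comm, bf_varpi, e_apply_same]

lemma srefl_varpi : sreflE (e 3) (e_root 3) varpi = mu := by
  simp only [sreflE_apply, bf_varpi_e3, one_smul, mu]

lemma srefl_mu : sreflE (e 3) (e_root 3) mu = varpi := by
  rw [← srefl_varpi]
  exact srefl_srefl (e_root 3) varpi

lemma bf_mu (a : Q) : bf a mu = bf a varpi - bf a (e 3) := by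
  rw [mu, bf_sub_right]

/-- The conjugating element. -/
def tau : GE := nn (e 3)

lemma acts_tau : Acts tau (sreflE (e 3) (e_root 3)) := acts_nn (e_root 3)

lemma tau_mul_self : tau * tau = 1 := nn_mul_self (e_root 3)

lemma tau_inv : tau⁻¹ = tau := nn_inv (e_root 3)

/-- The maximal subgroup. -/
abbrev M1 : Subgroup GE := Cn varpi 0

/-- Its conjugate. -/
abbrev M2 : Subgroup GE := Cn mu 0

lemma map_tau_M1 : M1.map (MulAut.conj tau).toMonoidHom = M2 := by
  have := map_Cn acts_tau varpi 0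
  rwa [srefl_varpi] at this

lemma conj_tau_M1 {y : GE} (hy : y ∈ M1) : tau * y * tau⁻¹ ∈ M2 := by
  have := conj_mem_Cn_of_mem acts_tau hy
  rwa [srefl_varpi] at this

lemma conj_tau_M2 {y : GE} (hy : y ∈ M2) : tau * y * tau⁻¹ ∈ M1 := by
  have := conj_mem_Cn_of_mem acts_tau hy
  rwa [srefl_mu] at this

lemma tau_tau_conj (y : GE) : tau * (tau * y * tau⁻¹) * tau⁻¹ = y := by
  have h : tau⁻¹ = tau := tau_inv
  rw [h]
  calc tau * (tau * y * tau) * tau = (tau * tau) * y * (tau * tau) := by group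
    _ = y := by rw [tau_mul_self]; simp

lemma tau_conj_conj (p z : GE) :
    tau * ((tau * p * tau⁻¹) * z * (tau * p * tau⁻¹)⁻¹) * tau⁻¹ = p * (tau * z * tau⁻¹) * p⁻¹ := by
  have h : tau⁻¹ = tau := tau_inv
  have h1 : tau * tau = 1 := tau_mul_self
  have h2 : tau⁻¹ * tau⁻¹ = 1 := by rw [h, h1]
  have e1 : tau * ((tau * p * tau⁻¹) * z * (tau * p * tau⁻¹)⁻¹) * tau⁻¹
      = (tau * tau) * p * (tau⁻¹ * z * tau) * p⁻¹ * (tau⁻¹ * tau⁻¹) := by group
  rw [e1, h1, h2, one_mul, mul_one, h]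

/-- The chains. -/
abbrev AA (k : ℕ) : Subgroup GE := (coreChain M1 M2 k).1
abbrev BB (k : ℕ) : Subgroup GE := (coreChain M1 M2 k).2

lemma AA_succ (k : ℕ) : AA (k + 1) = coreIn M1 (AA k ⊓ BB k) := rfl
lemma BB_succ (k : ℕ) : BB (k + 1) = coreIn M2 (AA k ⊓ BB k) := rfl

lemma AA_normal (k : ℕ) {p y : GE} (hp : p ∈ M1) (hy : y ∈ AA k) : p * y * p⁻¹ ∈ AA k := by
  cases k with
  | zero => exact mul_mem (mul_mem hp hy) (inv_mem hp)
  | succ k => exact conj_mem_coreIn hp hy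

lemma BB_normal (k : ℕ) {p y : GE} (hp : p ∈ M2) (hy : y ∈ BB k) : p * y * p⁻¹ ∈ BB k := by
  cases k with
  | zero => exact mul_mem (mul_mem hp hy) (inv_mem hp)
  | succ k => exact conj_mem_coreIn hp hy

lemma AA_succ_le_AA (k : ℕ) : AA (k + 1) ≤ AA k := (coreIn_le_right _ _).trans inf_le_left
lemma AA_succ_le_BB (k : ℕ) : AA (k + 1) ≤ BB k := (coreIn_le_right _ _).trans inf_le_right
lemma BB_succ_le_AA (k : ℕ) : BB (k + 1) ≤ AA k := (coreIn_le_right _ _).trans inf_le_left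
lemma BB_succ_le_BB (k : ℕ) : BB (k + 1) ≤ BB k := (coreIn_le_right _ _).trans inf_le_right

/-- `tau` exchanges the two chains. -/
lemma tau_swap (k : ℕ) :
    (∀ y ∈ AA k, tau * y * tau⁻¹ ∈ BB k) ∧ (∀ y ∈ BB k, tau * y * tau⁻¹ ∈ AA k) := by
  induction k with
  | zero => exact ⟨fun y hy => conj_tau_M1 hy, fun y hy => conj_tau_M2 hy⟩
  | succ k ih =>
    obtain ⟨ih1, ih2⟩ := ih
    constructor
    · intro y hy
      rw [BB_succ]
      have hK : (AA (k + 1)).map (MulAut.conj tau).toMonoidHom ≤ coreIn M2 (AA k ⊓ BB k) := by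
        apply le_coreIn
        · rintro _ ⟨z, hz, rfl⟩
          exact conj_tau_M1 ((coreIn_le_left _ _) hz)
        · rintro _ ⟨z, hz, rfl⟩
          exact ⟨ih2 z (AA_succ_le_BB k hz), ih1 z (AA_succ_le_AA k hz)⟩
        · rintro p hp _ ⟨z, hz, rfl⟩
          have hp' : tau * p * tau⁻¹ ∈ M1 := conj_tau_M2 hp
          refine ⟨(tau * p * tau⁻¹) * z * (tau * p * tau⁻¹)⁻¹, conj_mem_coreIn hp' hz, ?_⟩
          simp only [MulEquiv.coe_toMonoidHom, MulAut.conj_apply]
          exact tau_conj_conj p z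
      exact hK ⟨y, hy, rfl⟩
    · intro y hy
      rw [AA_succ]
      have hK : (BB (k + 1)).map (MulAut.conj tau).toMonoidHom ≤ coreIn M1 (AA k ⊓ BB k) := by
        apply le_coreIn
        · rintro _ ⟨z, hz, rfl⟩
          exact conj_tau_M2 ((coreIn_le_left _ _) hz)
        · rintro _ ⟨z, hz, rfl⟩
          exact ⟨ih2 z (BB_succ_le_BB k hz), ih1 z (BB_succ_le_AA k hz)⟩
        · rintro p hp _ ⟨z, hz, rfl⟩
          have hp' : tau * p * tau⁻¹ ∈ M2 := conj_tau_M1 hp
          refine ⟨(tau * p * tau⁻¹) * z * (tau * p * tau⁻¹)⁻¹, conj_mem_coreIn hp' hz, ?_⟩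
          simp only [MulEquiv.coe_toMonoidHom, MulAut.conj_apply]
          exact tau_conj_conj p z
      exact hK ⟨y, hy, rfl⟩

/-! ### The lower bound -/

lemma Cn_varpi_le_Cn_mu (k : ℕ) : Cn varpi ((k : ℤ) + 2) ≤ Cn mu ((k : ℤ) + 1) := by
  apply (Subgroup.closure_le _).2
  rintro _ ⟨a, ha, hk, rfl⟩
  have hne : a ≠ e 3 := by
    rintro rfl
    rw [bf_varpi, e_apply_same] at hk
    omega
  have hle := bf_le_two ha (e_root 3)
  have h1 : bf a (e 3) ≠ 2 := fun h => hne (eq_of_bf_eq_two ha (e_root 3) h)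
  exact xq_mem_Cn ha (by rw [bf_mu]; omega)

lemma Cn_mu_le_Cn_varpi (k : ℕ) : Cn mu ((k : ℤ) + 2) ≤ Cn varpi ((k : ℤ) + 1) := by
  apply (Subgroup.closure_le _).2
  rintro _ ⟨a, ha, hk, rfl⟩
  have hne : a ≠ -(e 3) := by
    rintro rfl
    rw [bf_mu, bf_neg_left, bf_neg_left, bf_varpi, e_apply_same, e_root 3] at hk
    omega
  have hge := neg_two_le_bf ha (e_root 3)
  have h1 : bf a (e 3) ≠ -2 := fun h => hne (eq_neg_of_bf_eq_neg_two ha (e_root 3) h)
  refine xq_mem_Cn ha ?_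
  rw [bf_mu] at hk
  omega

/-- The lower bound for the chains. -/
lemma lower_bound (k : ℕ) : Cn varpi ((k : ℤ) + 1) ≤ AA k ∧ Cn mu ((k : ℤ) + 1) ≤ BB k := by
  induction k with
  | zero =>
    exact ⟨Cn_mono (by norm_num), Cn_mono (by norm_num)⟩
  | succ k ih =>
    obtain ⟨ih1, ih2⟩ := ih
    have c1 : ((k + 1 : ℕ) : ℤ) + 1 = (k : ℤ) + 2 := by push_cast; ring
    rw [c1]
    constructor
    · rw [AA_succ]
      apply le_coreIn (Cn_mono (by omega))
      · exact le_inf ((Cn_mono (by omega)).trans ih1) ((Cn_varpi_le_Cn_mu k).trans ih2)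
      · intro p hp y hy
        exact conj_mem_Cn (by omega) hp hy
    · rw [BB_succ]
      apply le_coreIn (Cn_mono (by omega))
      · exact le_inf ((Cn_mu_le_Cn_varpi k).trans ih1) ((Cn_mono (by omega)).trans ih2)
      · intro p hp y hy
        exact conj_mem_Cn (by omega) hp hy

lemma xq_hroot_ne_one : xq hroot ≠ 1 := by
  intro h
  have hr := bf_hroot
  have h1 : ac (xq hroot) (ee (-hroot)) = ee (-hroot) := by rw [h]; rfl
  rw [ac_xq hr] at h1
  have h2 : cf (xF hroot (ee (-hroot))) hroot = cf (ee (-hroot)) hroot := by rw [h1]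
  have hnr := norm_neg_root hr
  rw [cf_x_eq _ hr, cf_ee hnr, cf_ee hnr, ee_snd] at h2
  have hne : hroot ≠ -hroot := (neg_ne_self_of_root hr).symm
  rw [if_neg hne, if_pos rfl] at h2
  simp [pr] at h2

/-- The fifth term of the chain is nontrivial. -/
theorem AA_five_ne_bot : AA 5 ≠ ⊥ := by
  intro h
  have h1 : xq hroot ∈ AA 5 := (lower_bound 5).1 (xq_mem_Cn bf_hroot (by rw [bf_hroot_varpi]; norm_num))
  rw [h] at h1
  exact xq_hroot_ne_one (Subgroup.mem_bot.1 h1)

end Cfsg.Agent.Lib.E8Two
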