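import Mathlib
import Cfsg.Agent.Lib.E8TwoChain

/-!
# The upper bound: the sixth term of the chain is trivial
-/

set_option autoImplicit false
set_option linter.unusedSimpArgs false
set_option linter.unusedTactic false
set_option linter.unreachableTactic false
set_option linter.style.longLine false
set_option linter.unusedVariables false

namespace Cfsg.Agent.Lib.E8Two

/-- `AA k` lies in a parabolic whose grading is negative on `γ`. -/
def EE (k : ℕ) (γ : Q) : Prop := ∃ μ, AA k ≤ Cn μ 0 ∧ bf γ μ < 0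

lemma EE_zero {γ : Q} (h : bf γ varpi < 0) : EE 0 γ := ⟨varpi, le_refl _, h⟩

lemma EE_mono {k : ℕ} {γ : Q} (h : EE k γ) : EE (k + 1) γ := by
  obtain ⟨μ, hμ, hneg⟩ := h
  exact ⟨μ, (AA_succ_le_AA k).trans hμ, hneg⟩

lemma bf_srefl_right {a : Q} (ha : bf a a = 2) (γ μ : Q) : bf γ (srefl a μ) = bf (srefl a γ) μ := by
  have := bf_srefl_srefl ha (srefl a γ) μ
  rw [srefl_srefl ha] at this
  exact this

lemma nn_conj_conj {j : Fin 8} (y : GE) :
    nn (e j) * (nn (e j) * y * (nn (e j))⁻¹) * (nn (e j))⁻¹ = y := by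
  have h : (nn (e j))⁻¹ = nn (e j) := nn_inv (e_root j)
  have h1 : nn (e j) * nn (e j) = 1 := nn_mul_self (e_root j)
  rw [h]
  calc nn (e j) * (nn (e j) * y * nn (e j)) * nn (e j) = (nn (e j) * nn (e j)) * y * (nn (e j) * nn (e j)) := by group
    _ = y := by rw [h1]; simp

lemma EE_refl_J {k : ℕ} {γ : Q} {j : Fin 8} (hj : j ≠ 3) (h : EE k (srefl (e j) γ)) : EE k γ := by
  obtain ⟨μ, hμ, hneg⟩ := h
  refine ⟨srefl (e j) μ, ?_, by rw [bf_srefl_right (e_root j)]; exact hneg⟩
  intro y hy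
  have h1 : nn (e j) * y * (nn (e j))⁻¹ ∈ AA k := AA_normal k (nn_e_mem_Cn hj) hy
  have h2 := conj_mem_Cn_of_mem (acts_nn (e_root j)) (hμ h1)
  rwa [nn_conj_conj] at h2

lemma EE_step {k : ℕ} {γ : Q} (h : EE k (srefl (e 3) γ)) : EE (k + 1) γ := by
  obtain ⟨μ, hμ, hneg⟩ := h
  refine ⟨srefl (e 3) μ, ?_, by rw [bf_srefl_right (e_root 3)]; exact hneg⟩
  intro y hy
  have h1 : tau * y * tau⁻¹ ∈ AA k := (tau_swap k).2 y (AA_succ_le_BB k hy)
  have h2 := conj_mem_Cn_of_mem acts_tau (hμ h1)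
  rwa [tau_tau_conj] at h2

/-- Antidominant representatives. -/
lemma exists_antidom : ∀ (n : ℕ) (γ : Q), bf γ γ = 2 → (bf γ rho + 311).toNat = n →
    ∃ κ, bf κ κ = 2 ∧ κ 3 = γ 3 ∧ (∀ j, j ≠ 3 → bf κ (e j) ≤ 0) ∧ ∀ k, EE k κ → EE k γ := by
  intro n
  induction n using Nat.strong_induction_on with
  | _ n ih =>
    intro γ hγ hn
    by_cases hex : ∃ j, j ≠ 3 ∧ 0 < bf γ (e j)
    · obtain ⟨j, hj, hpos⟩ := hex
      have hr : bf (srefl (e j) γ) (srefl (e j) γ) = 2 := by rw [bf_srefl_srefl (e_root j)]; exact hγ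
      have hh := height_srefl γ j
      have hb1 := height_bounds hγ
      have hb2 := height_bounds hr
      obtain ⟨κ, hκ, h3, hanti, hE⟩ := ih (bf (srefl (e j) γ) rho + 311).toNat (by omega) _ hr rfl
      refine ⟨κ, hκ, ?_, hanti, fun k hk => EE_refl_J hj (hE k hk)⟩
      rw [h3]
      simp [srefl, e_apply_ne hj.symm]
    · push Not at hex
      exact ⟨γ, hγ, rfl, hex, fun _ h => h⟩

/-- The pairing with each simple root, in coordinates. -/
lemma bf_right_e (u : Q) :
    bf u (e 0) = 2 * u 0 - u 2 ∧ bf u (e 1) = 2 * u 1 - u 3 ∧ bf u (e 2) = 2 * u 2 - u 0 - u 3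
    ∧ bf u (e 3) = 2 * u 3 - u 2 - u 4 - u 1 ∧ bf u (e 4) = 2 * u 4 - u 3 - u 5
    ∧ bf u (e 5) = 2 * u 5 - u 4 - u 6 ∧ bf u (e 6) = 2 * u 6 - u 5 - u 7 ∧ bf u (e 7) = 2 * u 7 - u 6 := by
  refine ⟨?_, ?_, ?_, ?_, ?_, ?_, ?_, ?_⟩ <;> simp [bf, e, Pi.single_apply] <;> ring

/-- The key inequality for antidominant roots. -/
lemma antidom_pairing {κ : Q} (hκ : bf κ κ = 2) (hanti : ∀ j, j ≠ 3 → bf κ (e j) ≤ 0) (h0 : 0 ≤ κ 3) :
    (κ 3 = 0 → 1 ≤ bf κ (e 3)) ∧ (κ 3 = 1 → 2 ≤ bf κ (e 3)) ∧ (2 ≤ κ 3 → 1 ≤ bf κ (e 3)) := by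
  have hsum := bf_eq_sum_right κ κ
  rw [hκ, Fin.sum_univ_eight] at hsum
  rcases pos_or_neg_of_root hκ with hp | hn
  · have key : ∀ j, j ≠ 3 → κ j * bf κ (e j) ≤ 0 := fun j hj =>
      mul_nonpos_of_nonneg_of_nonpos (hp j) (hanti j hj)
    have k0 := key 0 (by decide); have k1 := key 1 (by decide); have k2 := key 2 (by decide)
    have k4 := key 4 (by decide); have k5 := key 5 (by decide); have k6 := key 6 (by decide)
    have k7 := key 7 (by decide)
    have hmain : 2 ≤ κ 3 * bf κ (e 3) := by linarith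
    refine ⟨?_, ?_, ?_⟩
    · intro h3
      rw [h3] at hmain
      omega
    · intro h3
      rw [h3] at hmain
      omega
    · intro h3
      by_contra hcon
      have : bf κ (e 3) ≤ 0 := by omega
      nlinarith
  · have hz : κ 3 = 0 := by
      have := hn 3
      simp only [Pi.neg_apply] at this
      omega
    refine ⟨?_, ?_, ?_⟩
    · intro _
      obtain ⟨r0, r1, r2, r3, r4, r5, r6, r7⟩ := bf_right_e κ
      have a0 := hanti 0 (by decide); have a1 := hanti 1 (by decide); have a2 := hanti 2 (by decide)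
      have a4 := hanti 4 (by decide); have a5 := hanti 5 (by decide); have a6 := hanti 6 (by decide)
      have a7 := hanti 7 (by decide)
      have n0 := hn 0; have n1 := hn 1; have n2 := hn 2; have n4 := hn 4
      have n5 := hn 5; have n6 := hn 6; have n7 := hn 7
      simp only [Pi.neg_apply] at n0 n1 n2 n4 n5 n6 n7
      rw [r3, hz]
      by_contra hcon
      apply ne_zero_of_root hκ
      rw [r0] at a0; rw [r1] at a1; rw [r2] at a2; rw [r4] at a4; rw [r5] at a5; rw [r6] at a6; rw [r7] at a7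
      have z1 : κ 1 = 0 := by omega
      have z2 : κ 2 = 0 := by omega
      have z4 : κ 4 = 0 := by omega
      have z0 : κ 0 = 0 := by omega
      have z5 : κ 5 = 0 := by omega
      have z6 : κ 6 = 0 := by omega
      have z7 : κ 7 = 0 := by omega
      funext i
      fin_cases i
      · exact z0
      · exact z1
      · exact z2
      · exact hz
      · exact z4
      · exact z5
      · exact z6
      · exact z7
    · intro h3; omega
    · intro h3; omega

lemma coord3_srefl (κ : Q) : srefl (e 3) κ 3 = κ 3 - bf κ (e 3) := by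
  simp [srefl, e_apply_same]

/-- Base of the induction. -/
lemma EE_one {γ : Q} (hγ : bf γ γ = 2) (h : γ 3 ≤ 1) : EE 1 γ := by
  by_cases hneg : γ 3 < 0
  · exact EE_mono (EE_zero (by rw [bf_varpi]; exact hneg))
  · obtain ⟨κ, hκ, h3, hanti, hE⟩ := exists_antidom _ γ hγ rfl
    apply hE
    apply EE_step
    apply EE_zero
    rw [bf_varpi, coord3_srefl]
    obtain ⟨a1, a2, a3⟩ := antidom_pairing hκ hanti (by omega)
    rcases (show κ 3 = 0 ∨ κ 3 = 1 by omega) with h0 | h0
    · have := a1 h0; omega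
    · have := a2 h0; omega

lemma EE_up {k : ℕ} (hk : 1 ≤ k) (ih : ∀ γ, bf γ γ = 2 → γ 3 ≤ k → EE k γ) {γ : Q} (hγ : bf γ γ = 2)
    (h : γ 3 ≤ (k : ℤ) + 1) : EE (k + 1) γ := by
  by_cases hle : γ 3 ≤ k
  · exact EE_mono (ih γ hγ hle)
  · obtain ⟨κ, hκ, h3, hanti, hE⟩ := exists_antidom _ γ hγ rfl
    apply hE
    apply EE_step
    apply ih _ (by rw [bf_srefl_srefl (e_root 3)]; exact hκ)
    rw [coord3_srefl]
    have hk' : (1 : ℤ) ≤ k := by exact_mod_cast hk
    obtain ⟨a1, a2, a3⟩ := antidom_pairing hκ hanti (by omega)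
    have := a3 (by omega)
    omega

/-- Evenness and the square. -/
lemma two_mul_le_sq_of_even (x : ℤ) (h : (2 : ℤ) ∣ x) : 2 * x ≤ x ^ 2 := by
  obtain ⟨b, rfl⟩ := h
  rcases le_or_gt b 0 with h | h <;> nlinarith

lemma grade_aux (a1 a2 a3 a4 a5 a6 a7 a8 : ℤ)
    (h : 4 * 2 = a1 ^ 2 + a2 ^ 2 + a3 ^ 2 + a4 ^ 2 + a5 ^ 2 + a6 ^ 2 + a7 ^ 2 + a8 ^ 2)
    (hev : (2 : ℤ) ∣ a8 → (2 : ℤ) ∣ a3 ∧ (2 : ℤ) ∣ a4 ∧ (2 : ℤ) ∣ a5 ∧ (2 : ℤ) ∣ a6 ∧ (2 : ℤ) ∣ a7)
    (hs : 14 ≤ a3 + a4 + a5 + a6 + a7 + 5 * a8) : False := by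
  have s1 := sq_nonneg a1
  have s2 := sq_nonneg a2
  have b8 := sq_le_eight a8 (by nlinarith [sq_nonneg a3, sq_nonneg a4, sq_nonneg a5, sq_nonneg a6, sq_nonneg a7])
  by_cases h8 : a8 = 2
  · obtain ⟨e3, e4, e5, e6, e7⟩ := hev (by rw [h8])
    have q3 := two_mul_le_sq_of_even a3 e3
    have q4 := two_mul_le_sq_of_even a4 e4
    have q5 := two_mul_le_sq_of_even a5 e5
    have q6 := two_mul_le_sq_of_even a6 e6
    have q7 := two_mul_le_sq_of_even a7 e7
    subst h8
    nlinarith
  · have h8' : a8 ≤ 1 := by omega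
    nlinarith [sq_nonneg (a3 - 1), sq_nonneg (a4 - 1), sq_nonneg (a5 - 1), sq_nonneg (a6 - 1), sq_nonneg (a7 - 1),
      sq_nonneg a8]

/-- All roots have grade at most six. -/
lemma root_grade_le_six {u : Q} (hu : bf u u = 2) : u 3 ≤ 6 := by
  by_contra hcon
  have h := bf_self_sos u
  rw [hu] at h
  refine grade_aux _ _ _ _ _ _ _ _ h ?_ ?_
  · intro h2
    refine ⟨?_, ?_, ?_, ?_, ?_⟩ <;> omega
  · omega

theorem EE_six {γ : Q} (hγ : bf γ γ = 2) : EE 6 γ := by
  have h1 : ∀ γ, bf γ γ = 2 → γ 3 ≤ ((1 : ℕ) : ℤ) → EE 1 γ := fun γ hγ h => EE_one hγ (by simpa using h)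
  have h2 : ∀ γ, bf γ γ = 2 → γ 3 ≤ ((2 : ℕ) : ℤ) → EE 2 γ := fun γ hγ h => EE_up (by norm_num) h1 hγ (by simpa using h)
  have h3 : ∀ γ, bf γ γ = 2 → γ 3 ≤ ((3 : ℕ) : ℤ) → EE 3 γ := fun γ hγ h => EE_up (by norm_num) h2 hγ (by push_cast at h ⊢; omega)
  have h4 : ∀ γ, bf γ γ = 2 → γ 3 ≤ ((4 : ℕ) : ℤ) → EE 4 γ := fun γ hγ h => EE_up (by norm_num) h3 hγ (by push_cast at h ⊢; omega)
  have h5 : ∀ γ, bf γ γ = 2 → γ 3 ≤ ((5 : ℕ) : ℤ) → EE 5 γ := fun γ hγ h => EE_up (by norm_num) h4 hγ (by push_cast at h ⊢; omega)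
  exact EE_up (by norm_num) h5 hγ (by have := root_grade_le_six hγ; push_cast; omega)

/-! ### Cartan vectors -/

/-- A vector of the Cartan part. -/
def cart (h : H8) : LL := (0, h)

lemma cf_cart (h : H8) (u : Q) : cf (cart h) u = 0 := by
  simp only [cf, cart]
  split_ifs <;> rfl

lemma cart_snd (h : H8) : (cart h).2 = h := rfl

lemma zmod2_cases (x : ZMod 2) : x = 0 ∨ x = 1 := by
  revert x; decide

lemma Fil_cart (μ : Q) (h : H8) : Fil μ 0 (cart h) :=
  ⟨fun u _ hne => absurd (cf_cart h u) hne, fun _ => le_refl _⟩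

lemma S1 {z : GE} (hz : z ∈ AA 6) (h : H8) {γ : Q} (hγ : bf γ γ = 2) : cf (ac z (cart h)) γ = 0 := by
  obtain ⟨μ, hμ, hneg⟩ := EE_six hγ
  by_contra hne
  have := (Fil_of_mem_Cn (hμ hz) (Fil_cart μ h)).1 γ hγ hne
  omega

lemma S1' {z : GE} (hz : z ∈ AA 6) (h : H8) : ac z (cart h) = cart (ac z (cart h)).2 := by
  apply LL_ext
  · intro u hu
    rw [S1 hz h hu, cf_cart]
  · rfl

lemma Fil_ee {α μ : Q} (hα : bf α α = 2) : Fil μ (bf α μ) (ee α) := by
  constructor
  · intro u _ hne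
    rw [cf_ee hα] at hne
    by_cases h : u = α
    · rw [h]
    · rw [if_neg h] at hne
      exact absurd rfl hne
  · intro h
    exact absurd (ee_snd _) h

lemma S2 {z : GE} (hz : z ∈ AA 6) {α : Q} (hα : bf α α = 2) : (ac z (ee α)).2 = 0 := by
  obtain ⟨μ, hμ, hneg⟩ := EE_six (norm_neg_root hα)
  rw [bf_neg_left] at hneg
  by_contra hne
  have := (Fil_of_mem_Cn (hμ hz) (Fil_ee (μ := μ) hα)).2 hne
  omega

lemma xF_cart_one {a : Q} (ha : bf a a = 2) {h : H8} (hp : pr h a = 1) : xF a (cart h) = ee a + cart h := by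
  apply LL_ext
  · intro u hu
    rw [cf_xF a u _ hu, cf_add, cf_cart, cf_cart, cf_ee ha, cart_snd]
    by_cases h1 : u = a
    · rw [if_pos h1, if_pos h1, hp]
      simp
    · rw [if_neg h1, if_neg h1]
      split_ifs <;> simp [cf_cart]
  · rw [xF_snd, cf_cart]
    simp [cart_snd, ee_snd]

lemma xF_cart_zero {a : Q} (ha : bf a a = 2) {h : H8} (hp : pr h a = 0) : xF a (cart h) = cart h := by
  apply LL_ext
  · intro u hu
    rw [cf_xF a u _ hu, cf_cart, cf_cart, cart_snd]
    by_cases h1 : u = a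
    · rw [if_pos h1, hp]
      simp
    · rw [if_neg h1]
      split_ifs <;> simp [cf_cart]
  · rw [xF_snd, cf_cart]
    simp [cart_snd]

lemma exists_pr_one {a : Q} (ha : bf a a = 2) : ∃ h, pr h a = 1 := by
  by_contra hcon
  push Not at hcon
  have h0 : ∀ h, pr h a = 0 := fun h => (zmod2_cases _).resolve_right (hcon h)
  have hb : bar a = 0 := by
    apply pr_eq_zero_of_forall
    intro i
    rw [pr_bar, bf_comm, ← pr_bar]
    exact h0 _
  obtain ⟨s, rfl⟩ := bar_eq_zero hb
  rw [bf_smul_left, bf_smul_right] at ha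
  omega

lemma cf_ee_self {α : Q} (hα : bf α α = 2) : cf (ee α) α = 1 := by
  rw [cf_ee hα, if_pos rfl]

lemma ee_ne_zero {α : Q} (hα : bf α α = 2) : ee α ≠ 0 := by
  intro h
  have := cf_ee_self hα
  rw [h, cf_zero] at this
  exact zero_ne_one this

/-- The basic exchange identity. -/
lemma key_exchange {y : GE} (hy : y ∈ AA 6) {α : Q} (hα : bf α α = 2) (hp : Pos α) (h : H8) :
    ∃ h'', ac y (xF α (cart h)) = xF α (cart h'') := by
  have hx : xq α ∈ M1 := UU_le_Cn (xq_mem_UU hα hp)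
  have hy' := AA_normal 6 hx hy
  refine ⟨(ac (xq α * y * (xq α)⁻¹) (cart h)).2, ?_⟩
  have e1 := S1' hy' h
  rw [← e1, xq_inv hα, ac_mul, ac_mul, ac_xq hα, ac_xq hα, xF_xF hα]

/-- Elements of `AA 6` fix the positive root vectors. -/
lemma S6 {y : GE} (hy : y ∈ AA 6) {α : Q} (hα : bf α α = 2) (hp : Pos α) : ac y (ee α) = ee α := by
  obtain ⟨h₁, hh₁⟩ := exists_pr_one hα
  obtain ⟨h'', he⟩ := key_exchange hy hα hp h₁
  rw [xF_cart_one hα hh₁, ac_add, S1' hy h₁] at he
  set ψ := (ac y (cart h₁)).2 with hψ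
  have hsnd := congrArg Prod.snd he
  rcases zmod2_cases (pr h'' α) with h0 | h1
  · rw [xF_cart_zero hα h0] at he
    rw [xF_cart_zero hα h0] at hsnd
    have h2 : (ac y (ee α) + cart ψ).2 = ψ := by
      simp [S2 hy hα, cart_snd]
    rw [h2] at hsnd
    have hh : ψ = h'' := hsnd
    rw [← hh] at he
    have h3 : ac y (ee α) = 0 := by simpa using he
    exfalso
    apply ee_ne_zero hα
    apply ac_injective y
    rw [h3, ac_zero]
  · rw [xF_cart_one hα h1] at he
    rw [xF_cart_one hα h1] at hsnd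
    have h2 : (ac y (ee α) + cart ψ).2 = ψ := by
      simp [S2 hy hα, cart_snd]
    rw [h2] at hsnd
    have hh : ψ = h'' := by simpa [ee_snd, cart_snd] using hsnd
    rw [← hh] at he
    exact add_right_cancel he

/-- Elements of `AA 6` fix the Cartan part. -/
lemma S7 {y : GE} (hy : y ∈ AA 6) (h : H8) : ac y (cart h) = cart h := by
  set ψ := (ac y (cart h)).2 with hψ
  have hc : ac y (cart h) = cart ψ := S1' hy h
  have key : ∀ i, pr ψ (e i) = pr h (e i) := by
    intro i
    have hα := e_root i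
    obtain ⟨h'', he⟩ := key_exchange hy hα (pos_e i) h
    rcases zmod2_cases (pr h (e i)) with h0 | h1
    · rw [xF_cart_zero hα h0, hc] at he
      rcases zmod2_cases (pr h'' (e i)) with h0' | h1'
      · rw [xF_cart_zero hα h0'] at he
        have hh : ψ = h'' := congrArg Prod.snd he
        rw [h0, hh, h0']
      · rw [xF_cart_one hα h1'] at he
        exfalso
        have := congrArg (fun v => cf v (e i)) he
        simp only [cf_add, cf_cart, cf_ee_self hα, add_zero] at this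
        exact zero_ne_one this
    · rw [xF_cart_one hα h1, ac_add, S6 hy hα (pos_e i), hc] at he
      rcases zmod2_cases (pr h'' (e i)) with h0' | h1'
      · rw [xF_cart_zero hα h0'] at he
        exfalso
        have := congrArg (fun v => cf v (e i)) he
        simp only [cf_add, cf_cart, cf_ee_self hα, add_zero] at this
        exact one_ne_zero this
      · rw [xF_cart_one hα h1'] at he
        have hh : ψ = h'' := by
          have := congrArg Prod.snd he
          simpa [ee_snd, cart_snd] using this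
        rw [h1, hh, h1']
  have hzero : ψ + h = 0 := by
    apply pr_eq_zero_of_forall
    intro i
    rw [pr_add_left, key i]
    exact CharTwo.add_self_eq_zero _
  have : ψ = h := CharTwo.add_eq_zero.1 hzero
  rw [hc, this]

/-! ### Triangularity -/

/-- The shape of the image of a root vector under the unipotent group. -/
def Tri (α : Q) (v : LL) : Prop :=
  v.2 = 0 ∧ cf v α = 1 ∧ ∀ γ, bf γ γ = 2 → cf v γ ≠ 0 → γ = α ∨ (Pos γ ∧ bf α rho < bf γ rho)

lemma Tri_ee {α : Q} (hα : bf α α = 2) : Tri α (ee α) := by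
  refine ⟨ee_snd _, cf_ee_self hα, ?_⟩
  intro γ _ hne
  rw [cf_ee hα] at hne
  by_cases h : γ = α
  · exact Or.inl h
  · rw [if_neg h] at hne
    exact absurd rfl hne

lemma Tri_xF {α β : Q} (hα : bf α α = 2) (hαp : Pos α) (hβ : bf β β = 2) (hβp : Pos β) {v : LL} (hv : Tri α v) :
    Tri α (xF β v) := by
  obtain ⟨h1, h2, h3⟩ := hv
  have hneg : cf v (-β) = 0 := by
    by_contra hne
    rcases h3 _ (norm_neg_root hβ) hne with h | ⟨h, _⟩
    · rw [← h] at hαp
      exact pos_neg_not_both hβ hβp hαp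
    · exact pos_neg_not_both hβ hβp h
  have hpr : pr v.2 β = 0 := by
    rw [h1]; simp [pr]
  have hht := one_le_height hβ hβp
  refine ⟨?_, ?_, ?_⟩
  · rw [xF_snd, h1, hneg]; simp
  · rw [cf_xF β α v hα]
    by_cases hab : α = β
    · rw [if_pos hab, hneg, hpr, h2]; simp
    · rw [if_neg hab]
      split_ifs with h4
      · have hr := norm_sub_root hβ hα h4
        have hz : cf v (α - β) = 0 := by
          by_contra hne
          rcases h3 _ hr hne with h | ⟨_, h⟩
          · have : β = 0 := by simpa using h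
            exact ne_zero_of_root hβ this
          · rw [bf_sub_left] at h
            omega
        rw [hz, h2]; simp
      · rw [h2]; simp
  · intro γ hγ hne
    rw [cf_xF β γ v hγ] at hne
    by_cases h5 : cf v γ = 0
    · rw [h5, zero_add] at hne
      split_ifs at hne with h6 h7
      · rw [hneg, hpr] at hne
        exact absurd (by simp) hne
      · have hr := norm_sub_root hβ hγ h7
        have hpos : Pos ((γ - β) + β) ∧ bf α rho < bf ((γ - β) + β) rho := by
          rcases h3 _ hr hne with h | ⟨h, h8⟩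
          · rw [h]
            exact ⟨pos_add hαp hβp, by rw [bf_add_left]; omega⟩
          · exact ⟨pos_add h hβp, by rw [bf_add_left]; omega⟩
        rw [sub_add_cancel] at hpos
        exact Or.inr hpos
      · exact absurd rfl hne
    · exact h3 γ hγ h5

lemma UU_invol : ∀ s ∈ {g : GE | ∃ a, bf a a = 2 ∧ Pos a ∧ g = xq a}, s⁻¹ = s := by
  rintro g ⟨a, ha, _, rfl⟩
  exact xq_inv ha

lemma Tri_of_mem_UU {α : Q} (hα : bf α α = 2) (hαp : Pos α) {u : GE} (hu : u ∈ UU) {v : LL} (hv : Tri α v) :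
    Tri α (ac u v) := by
  refine closure_induction_invol (P := fun u => ∀ v, Tri α v → Tri α (ac u v)) UU_invol ?_ ?_ hu v hv
  · intro v hv
    exact hv
  · rintro _ ⟨b, hb, hbp, rfl⟩ g hg v hv
    rw [ac_mul, ac_xq hb]
    exact Tri_xF hα hαp hb hbp (hg v hv)

/-- An element fixing all positive root vectors lies in the unipotent group. -/
lemma mem_UU_of_fix {y : GE} (hy : ∀ α, bf α α = 2 → Pos α → ac y (ee α) = ee α) : y ∈ UU := by
  obtain ⟨u₁, h₁, w, hw, u₂, h₂, rfl⟩ := Bset_all y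
  obtain ⟨σ, hσ⟩ := exists_acts hw
  have hrel : ∀ α, bf α α = 2 → Pos α → ac w (ac u₂ (ee α)) = ac u₁⁻¹ (ee α) := by
    intro α hα hp
    have := hy α hα hp
    rw [ac_mul, ac_mul] at this
    conv_rhs => rw [← this]
    rw [ac_inv_ac]
  have hfix : ∀ (n : ℕ) (α : Q), bf α α = 2 → Pos α → (311 - bf α rho).toNat = n → σ.symm α = α := by
    intro n
    induction n using Nat.strong_induction_on with
    | _ n ih =>
      intro α hα hp hn
      have hTri2 := Tri_of_mem_UU hα hp h₂ (Tri_ee hα)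
      have hTri1 := Tri_of_mem_UU hα hp (inv_mem h₁) (Tri_ee hα)
      have hδr : bf (σ.symm α) (σ.symm α) = 2 := by rw [hσ.symm_iso]; exact hα
      have h1 : cf (ac u₂ (ee α)) (σ.symm α) = 1 := by
        have h3 := hσ.cf_eq (ac u₂ (ee α)) (σ.symm α)
        rw [hrel α hα hp] at h3
        simp only [AddEquiv.apply_symm_apply] at h3
        rw [← h3]
        exact hTri1.2.1
      rcases hTri2.2.2 _ hδr (by rw [h1]; exact one_ne_zero) with h | ⟨hpos, hlt⟩
      · exact h
      · exfalso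
        have hb1 := height_bounds hδr
        have hb2 := height_bounds hα
        have hih := ih (311 - bf (σ.symm α) rho).toNat (by omega) (σ.symm α) hδr hpos rfl
        have h4 : σ.symm α = α := by
          have := congrArg σ hih
          simp only [AddEquiv.apply_symm_apply] at this
          exact this
        rw [h4] at hlt
        exact lt_irrefl _ hlt
  have hw1 : w⁻¹ = 1 := by
    apply acts_eq_one_of_pos hσ.inv
    intro i
    have : σ.symm (e i) = e i := hfix _ _ (e_root i) (pos_e i) rfl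
    rw [this]
    exact pos_e i
  have hw2 : w = 1 := by simpa using hw1
  rw [hw2, mul_one]
  exact mul_mem h₁ h₂

/-! ### Detection of elements of the unipotent group -/

/-- The subgroup generated by the root elements of a finite set. -/
def UT (T : Finset Q) : Subgroup GE := Subgroup.closure {g | ∃ a ∈ T, g = xq a}

lemma UT_detect : ∀ (n : ℕ) (T : Finset Q), T.card = n → (∀ a ∈ T, bf a a = 2 ∧ Pos a) →
    (∀ a ∈ T, ∀ b, bf b b = 2 → Pos b → bf a b = -1 → a + b ∈ T) →
    ∀ u ∈ UT T, (∀ h, ac u (cart h) = cart h) → u = 1 := by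
  intro n
  induction n with
  | zero =>
    intro T hT _ _ u hu _
    have : T = ∅ := Finset.card_eq_zero.1 hT
    subst this
    have hbot : UT ∅ = ⊥ := by
      rw [UT, Subgroup.closure_eq_bot_iff]
      rintro g ⟨a, ha, _⟩
      simp at ha
    rw [hbot] at hu
    exact Subgroup.mem_bot.1 hu
  | succ n ih =>
    intro T hT hroot hup u hu hfix
    have hne : T.Nonempty := Finset.card_pos.1 (by omega)
    obtain ⟨β, hβ, hmin⟩ := Finset.exists_min_image T (fun a => bf a rho) hne
    obtain ⟨hβr, hβp⟩ := hroot β hβ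
    set T' := T.erase β with hT'
    have hcard : T'.card = n := by rw [hT', Finset.card_erase_of_mem hβ]; omega
    have hroot' : ∀ a ∈ T', bf a a = 2 ∧ Pos a := fun a ha => hroot a (Finset.mem_of_mem_erase ha)
    have hup' : ∀ a ∈ T', ∀ b, bf b b = 2 → Pos b → bf a b = -1 → a + b ∈ T' := by
      intro a ha b hb hbp ht
      have haT := Finset.mem_of_mem_erase ha
      have h1 := hup a haT b hb hbp ht
      refine Finset.mem_erase.2 ⟨?_, h1⟩
      intro h
      have h2 : bf β rho ≤ bf a rho := hmin a haT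
      have h3 := one_le_height hb hbp
      rw [← h, bf_add_left] at h2
      omega
    -- factorization
    have hS : ∀ s ∈ {g : GE | ∃ a ∈ T, g = xq a}, s⁻¹ = s := by
      rintro g ⟨a, ha, rfl⟩
      exact xq_inv (hroot a ha).1
    have hfac : ∃ t ∈ UT T', u⁻¹ = t ∨ u⁻¹ = t * xq β := by
      refine factor_aux hS (xq_mul_self hβr) ?_ (inv_mem hu)
      rintro s ⟨a, ha, rfl⟩
      by_cases hab : a = β
      · left; rw [hab]
      · right
        have haT' : a ∈ T' := Finset.mem_erase.2 ⟨hab, ha⟩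
        obtain ⟨har, hap⟩ := hroot a ha
        refine ⟨Subgroup.subset_closure ⟨a, haT', rfl⟩, ?_⟩
        rcases xq_conj hβr har (not_neg_of_pos hβr hβp hap) with h | ⟨ht, h⟩
        · rw [h]; exact Subgroup.subset_closure ⟨a, haT', rfl⟩
        · rw [h]
          refine mul_mem (Subgroup.subset_closure ⟨a, haT', rfl⟩) (Subgroup.subset_closure ⟨β + a, ?_, rfl⟩)
          refine Finset.mem_erase.2 ⟨?_, hup β hβ a har hap ht⟩
          intro h0
          have : a = 0 := by simpa using h0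
          exact ne_zero_of_root har this
    obtain ⟨t, ht, hut⟩ := hfac
    -- the shape of the image of a Cartan vector under `UT T'`
    have hshape : ∀ t ∈ UT T', ∀ v : LL, ∀ h, v.2 = h → (∀ γ, bf γ γ = 2 → cf v γ ≠ 0 → γ ∈ T') →
        (ac t v).2 = h ∧ ∀ γ, bf γ γ = 2 → cf (ac t v) γ ≠ 0 → γ ∈ T' := by
      intro t ht
      have hS' : ∀ s ∈ {g : GE | ∃ a ∈ T', g = xq a}, s⁻¹ = s := by
        rintro g ⟨a, ha, rfl⟩
        exact xq_inv (hroot' a ha).1
      refine closure_induction_invol (P := fun t => ∀ v : LL, ∀ h, v.2 = h →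
        (∀ γ, bf γ γ = 2 → cf v γ ≠ 0 → γ ∈ T') →
        (ac t v).2 = h ∧ ∀ γ, bf γ γ = 2 → cf (ac t v) γ ≠ 0 → γ ∈ T') hS' ?_ ?_ ht
      · intro v h h1 h2
        exact ⟨h1, h2⟩
      · rintro _ ⟨a, ha, rfl⟩ g hg v h h1 h2
        obtain ⟨har, hap⟩ := hroot' a ha
        obtain ⟨h3, h4⟩ := hg v h h1 h2
        rw [ac_mul, ac_xq har]
        have hnegz : cf (ac g v) (-a) = 0 := by
          by_contra hne
          have := h4 _ (norm_neg_root har) hne
          exact pos_neg_not_both har hap (hroot' _ this).2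
        refine ⟨by rw [xF_snd, h3, hnegz]; simp, ?_⟩
        intro γ hγ hne
        rw [cf_xF a γ _ hγ] at hne
        by_cases h5 : cf (ac g v) γ = 0
        · rw [h5, zero_add] at hne
          split_ifs at hne with h6 h7
          · rw [h6]; exact ha
          · have hr := norm_sub_root har hγ h7
            have h8 := h4 _ hr hne
            have h9 : bf (γ - a) a = -1 := by rw [bf_sub_left, h7, har]; norm_num
            have := hup' _ h8 a har hap h9
            rwa [sub_add_cancel] at this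
          · exact absurd rfl hne
        · exact h4 γ hγ h5
    have htinv : t⁻¹ ∈ UT T' := inv_mem ht
    -- `u` is `t⁻¹` or `x_β t⁻¹`
    rcases hut with h1 | h1
    · have hu1 : u = t⁻¹ := by rw [← inv_inv u, h1]
      rw [hu1] at hfix ⊢
      exact ih T' hcard hroot' hup' _ htinv hfix
    · exfalso
      have hu1 : u = xq β * t⁻¹ := by
        rw [← inv_inv u, h1, mul_inv_rev, xq_inv hβr]
      obtain ⟨h₁, hh₁⟩ := exists_pr_one hβr
      obtain ⟨s1, s2⟩ := hshape _ htinv (cart h₁) h₁ rfl (fun γ _ hne => absurd (cf_cart _ _) hne)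
      have h2 := hfix h₁
      rw [hu1, ac_mul, ac_xq hβr] at h2
      have h3 := congrArg (fun v => cf v β) h2
      simp only [cf_cart] at h3
      rw [cf_x_eq _ hβr, s1] at h3
      have hβ1 : cf (ac t⁻¹ (cart h₁)) β = 0 := by
        by_contra hne
        have := s2 _ hβr hne
        exact (Finset.mem_erase.1 this).1 rfl
      have hβ2 : cf (ac t⁻¹ (cart h₁)) (-β) = 0 := by
        by_contra hne
        have := s2 _ (norm_neg_root hβr) hne
        exact pos_neg_not_both hβr hβp (hroot' _ this).2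
      rw [hβ1, hβ2, hh₁] at h3
      simp at h3

/-- An element of the unipotent group fixing the Cartan part is trivial. -/
lemma eq_one_of_UU {u : GE} (hu : u ∈ UU) (hfix : ∀ h, ac u (cart h) = cart h) : u = 1 := by
  have hfin : {a : Q | bf a a = 2 ∧ Pos a}.Finite := by
    apply (Set.finite_range (fun g : Rt => (g : Q))).subset
    rintro a ⟨ha, _⟩
    exact ⟨⟨a, ha⟩, rfl⟩
  refine UT_detect _ hfin.toFinset rfl ?_ ?_ u ?_ hfix
  · intro a ha
    exact hfin.mem_toFinset.1 ha
  · intro a ha b hb hbp ht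
    obtain ⟨har, hap⟩ := hfin.mem_toFinset.1 ha
    exact hfin.mem_toFinset.2 ⟨by rw [norm_add, har, hb, ht]; norm_num, pos_add hap hbp⟩
  · have : UU ≤ UT hfin.toFinset := by
      apply (Subgroup.closure_le _).2
      rintro _ ⟨a, ha, hp, rfl⟩
      exact Subgroup.subset_closure ⟨a, hfin.mem_toFinset.2 ⟨ha, hp⟩, rfl⟩
    exact this hu

/-- The sixth term of the chain is trivial. -/
theorem AA_six_eq_bot : AA 6 = ⊥ := by
  rw [eq_bot_iff]
  intro y hy
  have hU : y ∈ UU := mem_UU_of_fix (fun α hα hp => S6 hy hα hp)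
  exact Subgroup.mem_bot.2 (eq_one_of_UU hU (fun h => S7 hy h))

end Cfsg.Agent.Lib.E8Two
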