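import Mathlib
import Cfsg.Agent.S3937
import Cfsg.Agent.Lib.Blichfeldt

/-!
# Elements with few eigenvalues (Blichfeldt, Brauer)

If `x` has prime order `p` in a finite unitary group and has at most `m` distinct eigenvalues, with
`6 ^ (m - 1) < p`, then `x` is a left Engel element modulo the kernel, hence lies in the Fitting
subgroup of the image.  A power `z` of `x` has all eigenvalues within 60 degrees of the eigenvalue
`ε` of a chosen eigenspace `W`; iterated commutators with `z` contract towards the pointwise stabilizer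
of `W`, and then one applies induction on the orthogonal complement of `W`.
-/

set_option autoImplicit false
set_option linter.unusedSectionVars false
set_option linter.unusedVariables false
set_option linter.style.haveILetI false

namespace Cfsg.Agent.Lib.EigenEngel

open Cfsg.Agent.S3937 Cfsg.Agent.Lib.Blichfeldt
open scoped InnerProductSpace

universe u v

section Engel

variable {G : Type u} [Group G]

theorem engelSeq_map {H : Type*} [Group H] (f : G →* H) (g x : G) (n : ℕ) :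
    f (engelSeq g x n) = engelSeq (f g) (f x) n := by
  induction n with
  | zero => rfl
  | succ n ih => simp only [engelSeq, map_mul, map_inv, ih]

theorem engelSeq_add (g x : G) (m n : ℕ) :
    engelSeq g (engelSeq g x m) n = engelSeq g x (m + n) := by
  induction n with
  | zero => rfl
  | succ n ih =>
    rw [← add_assoc]
    simp only [engelSeq, ih]

theorem mem_fitting_iff [Finite G] (g : G) :
    g ∈ Cfsg.fittingSubgroup G ↔ ∀ x : G, ∃ n, engelSeq g x n = 1 := by
  rw [Cfsg.Agent.S3937.result]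
  simp only [foldl_eq]

variable {V : Type v} [AddCommGroup V] [Module ℂ V]

/-- The element `z` is left Engel modulo the kernel of `ρ`. -/
def EngelIm (ρ : Representation ℂ G V) (z : G) : Prop :=
  ∀ t : G, ∃ n : ℕ, ρ (engelSeq z t n) = 1

theorem EngelIm.pow [Finite G] {ρ : Representation ℂ G V} {z : G} (h : EngelIm ρ z) (k : ℕ) :
    EngelIm ρ (z ^ k) := by
  let K : Subgroup G := MonoidHom.ker ρ
  haveI : K.Normal := MonoidHom.normal_ker ρ
  let π : G →* G ⧸ K := QuotientGroup.mk' K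
  have hπ : ∀ g, π g = 1 ↔ ρ g = 1 := by
    intro g
    rw [QuotientGroup.mk'_apply, QuotientGroup.eq_one_iff]
    exact MonoidHom.mem_ker
  have h1 : π z ∈ Cfsg.fittingSubgroup (G ⧸ K) := by
    rw [mem_fitting_iff]
    intro x
    obtain ⟨t, rfl⟩ := QuotientGroup.mk'_surjective K x
    obtain ⟨n, hn⟩ := h t
    refine ⟨n, ?_⟩
    rw [← engelSeq_map, hπ]
    exact hn
  have h2 : π (z ^ k) ∈ Cfsg.fittingSubgroup (G ⧸ K) := by
    rw [map_pow]
    exact pow_mem h1 k
  intro t
  obtain ⟨n, hn⟩ := (mem_fitting_iff _).mp h2 (π t)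
  refine ⟨n, ?_⟩
  rw [← engelSeq_map, hπ] at hn
  exact hn

end Engel

section Cell

open Real

/-- The scaled argument. -/
noncomputable def sArg (z : ℂ) : ℝ := (Complex.arg z + π) * 3 / π

theorem sArg_pos (z : ℂ) : 0 < sArg z := by
  have h1 := Complex.neg_pi_lt_arg z
  have hpi := Real.pi_pos
  unfold sArg
  apply div_pos _ hpi
  apply mul_pos _ (by norm_num)
  linarith

theorem sArg_le (z : ℂ) : sArg z ≤ 6 := by
  have h1 := Complex.arg_le_pi z
  have hpi := Real.pi_pos
  unfold sArg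
  rw [div_le_iff₀ hpi]
  nlinarith

theorem ceil_sArg_pos (z : ℂ) : 0 < ⌈sArg z⌉₊ := Nat.ceil_pos.mpr (sArg_pos z)

theorem ceil_sArg_le (z : ℂ) : ⌈sArg z⌉₊ ≤ 6 := by
  apply Nat.ceil_le.mpr
  simpa using sArg_le z

/-- One of six arcs. -/
noncomputable def cell6 (z : ℂ) : Fin 6 :=
  ⟨⌈sArg z⌉₊ - 1, by have := ceil_sArg_pos z; have := ceil_sArg_le z; omega⟩

theorem norm_sub_lt_one_of_cell6_eq {z w : ℂ} (hz : ‖z‖ = 1) (hw : ‖w‖ = 1) (h : cell6 z = cell6 w) :
    ‖z - w‖ < 1 := by
  have hz0 : z ≠ 0 := by intro h0; rw [h0] at hz; simp at hz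
  have hw0 : w ≠ 0 := by intro h0; rw [h0] at hw; simp at hw
  have hpi := Real.pi_pos
  have hceil : ⌈sArg z⌉₊ = ⌈sArg w⌉₊ := by
    have h1 := congrArg Fin.val h
    simp only [cell6] at h1
    have := ceil_sArg_pos z
    have := ceil_sArg_pos w
    omega
  have ha1 : sArg z < sArg w + 1 := by
    have h1 := Nat.le_ceil (sArg z)
    have h2 := Nat.ceil_lt_add_one (sArg_pos w).le
    rw [hceil] at h1
    linarith
  have ha2 : sArg w < sArg z + 1 := by
    have h1 := Nat.le_ceil (sArg w)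
    have h2 := Nat.ceil_lt_add_one (sArg_pos z).le
    rw [← hceil] at h1
    linarith
  set α := Complex.arg z with hα
  set β := Complex.arg w with hβ
  have hdiff : |α - β| < Real.pi / 3 := by
    have h3 : sArg z - sArg w = (α - β) * 3 / Real.pi := by
      unfold sArg
      rw [← hα, ← hβ]
      ring
    rw [abs_lt]
    constructor
    · have h4 : -1 < (α - β) * 3 / Real.pi := by rw [← h3]; linarith
      rw [lt_div_iff₀ hpi] at h4
      linarith
    · have h4 : (α - β) * 3 / Real.pi < 1 := by rw [← h3]; linarith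
      rw [div_lt_iff₀ hpi] at h4
      linarith
  have hre : (z * (starRingEnd ℂ) w).re = Real.cos (α - β) := by
    rw [Real.cos_sub, hα, hβ, Complex.cos_arg hz0, Complex.cos_arg hw0, Complex.sin_arg,
      Complex.sin_arg, hz, hw]
    simp
  have hcos : 1 / 2 < (z * (starRingEnd ℂ) w).re := by
    rw [hre, ← Real.cos_abs, ← Real.cos_pi_div_three]
    apply Real.cos_lt_cos_of_nonneg_of_le_pi_div_two (abs_nonneg _) (by linarith) hdiff
  have hnorm : ‖z - w‖ ^ 2 = 2 - 2 * (z * (starRingEnd ℂ) w).re := by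
    rw [Complex.sq_norm, Complex.normSq_sub]
    have e1 : Complex.normSq z = 1 := by rw [Complex.normSq_eq_norm_sq, hz]; norm_num
    have e2 : Complex.normSq w = 1 := by rw [Complex.normSq_eq_norm_sq, hw]; norm_num
    rw [e1, e2]
    ring
  have h5 : ‖z - w‖ ^ 2 < 1 ^ 2 := by rw [hnorm]; linarith
  exact lt_of_pow_lt_pow_left₀ 2 (by norm_num) h5

/-- The pigeonhole principle for powers of elements of the unit circle. -/
theorem exists_pow_near (S : Finset ℂ) (ε : ℂ) (p : ℕ) (hp : 6 ^ S.card < p) :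
    ∃ k : ℕ, 0 < k ∧ k < p ∧ ∀ μ ∈ S, ‖μ / ε‖ = 1 → ‖(μ / ε) ^ k - 1‖ < 1 := by
  classical
  let f : Fin p → (S → Fin 6) := fun l μ => cell6 (((μ : ℂ) / ε) ^ (l : ℕ))
  have hcard : Fintype.card (S → Fin 6) < Fintype.card (Fin p) := by
    simpa [Fintype.card_fun] using hp
  obtain ⟨l₁, l₂, hne, hff⟩ := Fintype.exists_ne_map_eq_of_card_lt f hcard
  wlog hlt : (l₁ : ℕ) < l₂ generalizing l₁ l₂
  · refine this l₂ l₁ hne.symm hff.symm ?_
    have h1 : (l₁ : ℕ) ≠ l₂ := fun h => hne (Fin.ext h)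
    omega
  refine ⟨l₂ - l₁, by omega, by have := l₂.2; omega, ?_⟩
  intro μ hμ hunit
  have h1 := congrFun hff ⟨μ, hμ⟩
  have h2 := norm_sub_lt_one_of_cell6_eq (z := (μ / ε) ^ (l₂ : ℕ)) (w := (μ / ε) ^ (l₁ : ℕ))
    (by rw [norm_pow, hunit, one_pow]) (by rw [norm_pow, hunit, one_pow]) h1.symm
  have h3 : (μ / ε) ^ (l₂ : ℕ) - (μ / ε) ^ (l₁ : ℕ) = (μ / ε) ^ (l₁ : ℕ) * ((μ / ε) ^ ((l₂ : ℕ) - l₁) - 1) := by
    rw [mul_sub, mul_one, ← pow_add]
    congr 2
    omega
  rw [h3, norm_mul, norm_pow, hunit, one_pow, one_mul] at h2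
  exact h2

end Cell

section Main

variable {G : Type u} [Group G] {E : Type v} [NormedAddCommGroup E] [InnerProductSpace ℂ E]
  [FiniteDimensional ℂ E]

/-- The contraction estimate. -/
theorem contract (ρ : Representation ℂ G E) (hiso : ∀ a v, ‖ρ a v‖ = ‖v‖) (z c : G) {ε : ℂ} (hε : ε ≠ 0)
    {r : ℝ} (hT : ∀ v, ‖ε⁻¹ • ρ z v - v‖ ≤ r * ‖v‖) {w : E} (hw : ρ z w = ε • w) :
    ‖ρ (c * z * c⁻¹ * z⁻¹) w - w‖ ≤ r * ‖ρ c w - w‖ := by
  have hinv : ∀ (g : G) (v : E), ρ g (ρ g⁻¹ v) = v := by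
    intro g v
    have : ρ (g * g⁻¹) v = v := by simp
    rw [map_mul] at this
    exact this
  have hinv' : ∀ (g : G) (v : E), ρ g⁻¹ (ρ g v) = v := by
    intro g v
    have : ρ (g⁻¹ * g) v = v := by simp
    rw [map_mul] at this
    exact this
  have hzw : ρ z⁻¹ w = ε⁻¹ • w := by
    have h1 : ρ z⁻¹ (ρ z w) = w := hinv' z w
    rw [hw, map_smul] at h1
    have h2 : ρ z⁻¹ w = ε⁻¹ • (ε • ρ z⁻¹ w) := by
      rw [smul_smul, inv_mul_cancel₀ hε, one_smul]
    rw [h2, h1]
  set u := ρ c⁻¹ w with hu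
  set s := u - w with hs
  have hcu : ρ c u = w := hinv c w
  have h1 : ρ (c * z * c⁻¹ * z⁻¹) w = ρ c (ε⁻¹ • ρ z u) := by
    rw [map_mul, map_mul, map_mul]
    simp only [Module.End.mul_apply]
    rw [hzw, map_smul, map_smul, map_smul]
  have h2 : ρ (c * z * c⁻¹ * z⁻¹) w - w = ρ c (ε⁻¹ • ρ z s - s) := by
    have hus : u = w + s := by rw [hs]; abel
    have h3 : ε⁻¹ • ρ z u = w + ε⁻¹ • ρ z s := by
      rw [hus, map_add, hw, smul_add, smul_smul, inv_mul_cancel₀ hε, one_smul]
    have h4 : ρ c (w + s) = w := by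
      rw [← hus]
      exact hcu
    rw [h1, h3]
    calc ρ c (w + ε⁻¹ • ρ z s) - w = ρ c (w + ε⁻¹ • ρ z s) - ρ c (w + s) := by rw [h4]
      _ = ρ c (w + ε⁻¹ • ρ z s - (w + s)) := (map_sub (ρ c) _ _).symm
      _ = ρ c (ε⁻¹ • ρ z s - s) := by congr 1; abel
  rw [h2, hiso]
  have hs2 : ‖s‖ = ‖ρ c w - w‖ := by
    have h7 : ρ c s = w - ρ c w := by
      rw [hs, map_sub, hcu]
    rw [← hiso c s, h7, norm_sub_rev]
  rw [← hs2]
  exact hT s

/-- The tail of the Engel sequence fixes the eigenspace. -/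
theorem chain_fix [Finite G] (ρ : Representation ℂ G E) (hiso : ∀ a v, ‖ρ a v‖ = ‖v‖) (z : G) {ε : ℂ}
    (hε : ε ≠ 0) {r : ℝ} (hr0 : 0 ≤ r) (hr1 : r < 1) (hT : ∀ v, ‖ε⁻¹ • ρ z v - v‖ ≤ r * ‖v‖) (t : G) :
    ∃ N : ℕ, ∀ n, N ≤ n → ∀ w, ρ z w = ε • w → ρ (engelSeq z t n) w = w := by
  obtain ⟨i, j, hij, heq⟩ := Finite.exists_ne_map_eq_of_infinite (engelSeq z t)
  wlog hlt : i < j generalizing i j
  · exact this j i hij.symm heq.symm (by omega)
  refine ⟨i, ?_⟩
  have hstep : ∀ n, engelSeq z t (n + 1) = engelSeq z t n * z * (engelSeq z t n)⁻¹ * z⁻¹ := fun n => rfl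
  have hper : ∀ n, engelSeq z t (i + n) = engelSeq z t (j + n) := by
    intro n
    induction n with
    | zero => exact heq
    | succ n ih =>
      rw [← add_assoc, ← add_assoc, hstep, hstep, ih]
  intro n hn w hw
  have hd : ∀ (a : ℕ) (b : ℕ), ‖ρ (engelSeq z t (a + b)) w - w‖ ≤ r ^ b * ‖ρ (engelSeq z t a) w - w‖ := by
    intro a b
    induction b with
    | zero => simp
    | succ b ih =>
      rw [← add_assoc, hstep, pow_succ]
      calc _ ≤ r * ‖ρ (engelSeq z t (a + b)) w - w‖ := contract ρ hiso z _ hε hT hw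
        _ ≤ r * (r ^ b * ‖ρ (engelSeq z t a) w - w‖) := by gcongr
        _ = _ := by ring
  have hL : 0 < j - i := by omega
  have hper' : engelSeq z t (n + (j - i)) = engelSeq z t n := by
    have h1 := hper (n - i)
    have e1 : i + (n - i) = n := by omega
    have e2 : j + (n - i) = n + (j - i) := by omega
    rw [e1, e2] at h1
    exact h1.symm
  have h1 := hd n (j - i)
  rw [hper'] at h1
  have h2 : r ^ (j - i) < 1 := pow_lt_one₀ hr0 hr1 hL.ne'
  have h3 : ‖ρ (engelSeq z t n) w - w‖ ≤ 0 := by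
    by_contra hc
    rw [not_le] at hc
    nlinarith
  exact sub_eq_zero.mp (norm_le_zero_iff.mp h3)

/-- The elements acting on `W` as nonzero scalars. -/
def scalSub (ρ : Representation ℂ G E) (W : Submodule ℂ E) : Subgroup G where
  carrier := {g | ∃ c : ℂ, c ≠ 0 ∧ ∀ w ∈ W, ρ g w = c • w}
  mul_mem' := by
    rintro a b ⟨c, hc, ha⟩ ⟨d, hd, hb⟩
    refine ⟨c * d, mul_ne_zero hc hd, fun w hw => ?_⟩
    rw [map_mul, Module.End.mul_apply, hb w hw, map_smul, ha w hw, smul_smul, mul_comm]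
  one_mem' := ⟨1, one_ne_zero, fun w _ => by simp⟩
  inv_mem' := by
    rintro a ⟨c, hc, ha⟩
    refine ⟨c⁻¹, inv_ne_zero hc, fun w hw => ?_⟩
    have h1 : ρ a⁻¹ (ρ a w) = w := by
      have : ρ (a⁻¹ * a) w = w := by simp
      rw [map_mul] at this
      exact this
    rw [ha w hw, map_smul] at h1
    have h2 : ρ a⁻¹ w = c⁻¹ • (c • ρ a⁻¹ w) := by
      rw [smul_smul, inv_mul_cancel₀ hc, one_smul]
    rw [h2, h1]

theorem scalSub_orth (ρ : Representation ℂ G E) (hiso : ∀ a v, ‖ρ a v‖ = ‖v‖) (W : Submodule ℂ E)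
    (a : scalSub ρ W) (v : E) (hv : v ∈ Wᗮ) : ρ a v ∈ Wᗮ := by
  rw [Submodule.mem_orthogonal] at hv ⊢
  intro w hw
  obtain ⟨c, hc, ha⟩ := (scalSub ρ W).inv_mem a.2
  have h1 : ρ (a : G) (ρ (a : G)⁻¹ w) = w := by
    have : ρ ((a : G) * (a : G)⁻¹) w = w := by simp
    rw [map_mul] at this
    exact this
  have h2 : ⟪w, ρ (a : G) v⟫_ℂ = ⟪ρ (a : G)⁻¹ w, v⟫_ℂ := by
    conv_lhs => rw [← h1]
    exact inner_map_map ρ hiso _ _ _
  rw [h2, ha w hw, inner_smul_left, hv w hw, mul_zero]

/-- The restriction of the representation to the orthogonal complement of `W`. -/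
noncomputable def orthRep (ρ : Representation ℂ G E) (hiso : ∀ a v, ‖ρ a v‖ = ‖v‖) (W : Submodule ℂ E) :
    Representation ℂ (scalSub ρ W) (Wᗮ : Submodule ℂ E) :=
  restrictRep (ρ.comp (scalSub ρ W).subtype) Wᗮ (fun a v hv => scalSub_orth ρ hiso W a v hv)

theorem orthRep_coe (ρ : Representation ℂ G E) (hiso : ∀ a v, ‖ρ a v‖ = ‖v‖) (W : Submodule ℂ E)
    (a : scalSub ρ W) (v : (Wᗮ : Submodule ℂ E)) : ((orthRep ρ hiso W a v : (Wᗮ : Submodule ℂ E)) : E) = ρ a v := rfl

/-- An orthonormal eigenbasis of one isometry of finite order. -/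
theorem exists_eigenbasis_one [Finite G] (ρ : Representation ℂ G E) (hiso : ∀ a v, ‖ρ a v‖ = ‖v‖) (x : G) :
    ∃ (k : ℕ) (b : OrthonormalBasis (Fin k) ℂ E) (μ : Fin k → ℂ), ∀ i, ρ x (b i) = μ i • b i := by
  let A : Subgroup G := Subgroup.zpowers x
  let σ : Representation ℂ A E := ρ.comp A.subtype
  have hcomm : ∀ a b : A, σ a * σ b = σ b * σ a := by
    intro a b
    have : (a : G) * b = b * a := by
      obtain ⟨i, hi⟩ := Subgroup.mem_zpowers_iff.mp a.2
      obtain ⟨j, hj⟩ := Subgroup.mem_zpowers_iff.mp b.2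
      rw [← hi, ← hj, ← zpow_add, ← zpow_add, add_comm]
    change ρ (a : G) * ρ (b : G) = ρ (b : G) * ρ (a : G)
    rw [← map_mul, ← map_mul, this]
  obtain ⟨k, b, μ, hb⟩ := exists_common_orthonormal_eigenbasis (H := A) _ E σ rfl
    (fun a v => hiso _ v) hcomm
  exact ⟨k, b, fun i => μ i ⟨x, Subgroup.mem_zpowers x⟩, fun i => hb i ⟨x, Subgroup.mem_zpowers x⟩⟩

/-- Main theorem: elements of prime order with few eigenvalues are left Engel modulo the kernel. -/
theorem main : ∀ (m p : ℕ), p.Prime → 6 ^ (m - 1) < p → ∀ (G : Type u) [Group G] [Finite G]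
    (E : Type v) [NormedAddCommGroup E] [InnerProductSpace ℂ E] [FiniteDimensional ℂ E]
    (ρ : Representation ℂ G E), (∀ a v, ‖ρ a v‖ = ‖v‖) → ∀ x : G, x ^ p = 1 → ∀ S : Finset ℂ, S.card ≤ m →
    (∀ (μ : ℂ) (v : E), v ≠ 0 → ρ x v = μ • v → μ ∈ S) → EngelIm ρ x := by
  classical
  intro m
  induction m with
  | zero =>
    intro p hp _ G _ _ E _ _ _ ρ hiso x hxp S hS hev
    obtain ⟨k, b, μ, hb⟩ := exists_eigenbasis_one ρ hiso x
    have hS0 : S = ∅ := Finset.card_eq_zero.mp (Nat.le_zero.mp hS)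
    have hk : k = 0 := by
      by_contra hk
      let i : Fin k := ⟨0, Nat.pos_of_ne_zero hk⟩
      have h0 : b i ≠ 0 := fun h => by
        have := b.orthonormal.1 i
        rw [h] at this
        simp at this
      have := hev (μ i) (b i) h0 (hb i)
      simp [hS0] at this
    subst hk
    have hsub : Subsingleton E := by
      have hv : ∀ v : E, v = 0 := by
        intro v
        rw [← b.sum_repr' v]
        simp
      exact ⟨fun a c => by rw [hv a, hv c]⟩
    intro t
    refine ⟨0, ?_⟩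
    ext v
    exact Subsingleton.elim _ _
  | succ m ih =>
    intro p hp hm G _ _ E _ _ _ ρ hiso x hxp S hS hev
    have hm' : 6 ^ m < p := by simpa using hm
    obtain ⟨n, b, μ, hb⟩ := exists_eigenbasis_one ρ hiso x
    by_cases hn : n = 0
    · subst hn
      have hsub : Subsingleton E := by
        have hv : ∀ v : E, v = 0 := by
          intro v
          rw [← b.sum_repr' v]
          simp
        exact ⟨fun a c => by rw [hv a, hv c]⟩
      intro t
      refine ⟨0, ?_⟩
      ext v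
      exact Subsingleton.elim _ _
    have hb0 : ∀ i, b i ≠ 0 := fun i h => by
      have := b.orthonormal.1 i
      rw [h] at this
      simp at this
    have hμ1 : ∀ i, ‖μ i‖ = 1 := by
      intro i
      have h1 := hiso x (b i)
      rw [hb, norm_smul, b.orthonormal.1 i, mul_one] at h1
      exact h1
    have hμS : ∀ i, μ i ∈ S := fun i => hev _ _ (hb0 i) (hb i)
    let i₀ : Fin n := ⟨0, Nat.pos_of_ne_zero hn⟩
    set ε₁ := μ i₀ with hε₁
    have hε₁0 : ε₁ ≠ 0 := fun h => by
      have := hμ1 i₀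
      rw [← hε₁, h] at this
      simp at this
    -- the pigeonhole step
    have hcard : (S.erase ε₁).card ≤ m := by
      rw [Finset.card_erase_of_mem (hμS i₀)]
      omega
    have hle : 6 ^ (S.erase ε₁).card < p :=
      lt_of_le_of_lt (Nat.pow_le_pow_right (by norm_num) hcard) hm'
    obtain ⟨k, hk0, hkp, hnear⟩ := exists_pow_near (S.erase ε₁) ε₁ p hle
    have hnear' : ∀ i, ‖(μ i / ε₁) ^ k - 1‖ < 1 := by
      intro i
      by_cases h : μ i = ε₁
      · rw [h, div_self hε₁0, one_pow, sub_self, norm_zero]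
        exact one_pos
      · refine hnear _ (Finset.mem_erase.mpr ⟨h, hμS i⟩) ?_
        have hε₁n : ‖ε₁‖ = 1 := hμ1 i₀
        rw [norm_div, hμ1, hε₁n, div_one]
    -- the bound on the operator
    obtain ⟨i₁, -, hi₁⟩ := Finset.exists_max_image Finset.univ (fun i => ‖(μ i / ε₁) ^ k - 1‖)
      ⟨i₀, Finset.mem_univ _⟩
    set r := ‖(μ i₁ / ε₁) ^ k - 1‖ with hr
    have hr0 : 0 ≤ r := norm_nonneg _
    have hr1 : r < 1 := hnear' i₁
    set z := x ^ k with hz
    set ε := ε₁ ^ k with hε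
    have hε0 : ε ≠ 0 := pow_ne_zero _ hε₁0
    have hzb : ∀ i, ρ z (b i) = μ i ^ k • b i := by
      intro i
      have : ∀ l : ℕ, ρ (x ^ l) (b i) = μ i ^ l • b i := by
        intro l
        induction l with
        | zero => simp
        | succ l ihl =>
          rw [pow_succ, map_mul, Module.End.mul_apply, hb, map_smul, ihl, smul_smul, pow_succ, mul_comm]
      exact this k
    have hT : ∀ v, ‖ε⁻¹ • ρ z v - v‖ ≤ r * ‖v‖ := by
      intro v
      let T : E →L[ℂ] E := ε⁻¹ • contRep ρ z - 1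
      have hTb : ∀ i, T (b i) = ((μ i / ε₁) ^ k - 1) • b i := by
        intro i
        change ε⁻¹ • ρ z (b i) - b i = _
        rw [hzb, sub_smul, one_smul, smul_smul]
        rw [div_pow, div_eq_inv_mul, hε]
      have hTn : ‖T‖ ≤ r := opNorm_le_of_diag b T _ hTb hr0 (fun i => hi₁ i (Finset.mem_univ i))
      have h1 : ‖T v‖ ≤ r * ‖v‖ := (T.le_opNorm v).trans (by gcongr)
      exact h1
    -- the eigenspace
    let W : Submodule ℂ E := Module.End.eigenspace (ρ x) ε₁
    have hW : ∀ w ∈ W, ρ x w = ε₁ • w := fun w hw => Module.End.mem_eigenspace_iff.mp hw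
    have hWz : ∀ w ∈ W, ρ z w = ε • w := by
      intro w hw
      have : ∀ l : ℕ, ρ (x ^ l) w = ε₁ ^ l • w := by
        intro l
        induction l with
        | zero => simp
        | succ l ihl =>
          rw [pow_succ, map_mul, Module.End.mul_apply, hW w hw, map_smul, ihl, smul_smul, pow_succ, mul_comm]
      exact this k
    -- the induction hypothesis on the complement
    have hxH : x ∈ scalSub ρ W := ⟨ε₁, hε₁0, hW⟩
    let x' : scalSub ρ W := ⟨x, hxH⟩
    have hmm : 6 ^ (m - 1) < p := lt_of_le_of_lt (Nat.pow_le_pow_right (by norm_num) (Nat.sub_le _ _)) hm'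
    have hσ := ih p hp hmm (scalSub ρ W) (Wᗮ : Submodule ℂ E) (orthRep ρ hiso W)
      (fun a v => by
        have : ‖((orthRep ρ hiso W a v : (Wᗮ : Submodule ℂ E)) : E)‖ = ‖(v : E)‖ := by
          rw [orthRep_coe]
          exact hiso _ _
        simpa using this) x' (Subtype.ext (by simpa [x'] using hxp)) (S.erase ε₁) hcard (by
        intro ν v hv hνv
        have hv0 : (v : E) ≠ 0 := fun h => hv (Subtype.ext h)
        have hv1 : ρ x (v : E) = ν • (v : E) := by
          have := congrArg (fun u : (Wᗮ : Submodule ℂ E) => (u : E)) hνv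
          simpa [orthRep_coe, x'] using this
        refine Finset.mem_erase.mpr ⟨?_, hev _ _ hv0 hv1⟩
        rintro rfl
        have hvW : (v : E) ∈ W := Module.End.mem_eigenspace_iff.mpr hv1
        have := Submodule.inner_right_of_mem_orthogonal hvW v.2
        exact hv0 (inner_self_eq_zero.mp this))
    have hσz := hσ.pow k
    have hzH : EngelIm ρ z := by
      intro t
      obtain ⟨N, hN⟩ := chain_fix ρ hiso z hε0 hr0 hr1 hT t
      have hfix : ∀ n', N ≤ n' → ∀ w ∈ W, ρ (engelSeq z t n') w = w := fun n' hn' w hw =>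
        hN n' hn' w (hWz w hw)
      have heH : engelSeq z t N ∈ scalSub ρ W :=
        ⟨1, one_ne_zero, fun w hw => by rw [hfix N le_rfl w hw, one_smul]⟩
      obtain ⟨l, hl⟩ := hσz ⟨_, heH⟩
      refine ⟨N + l, ?_⟩
      have hcoe : ((engelSeq (x' ^ k) ⟨_, heH⟩ l : scalSub ρ W) : G) = engelSeq z t (N + l) := by
        have h1 := engelSeq_map (scalSub ρ W).subtype (x' ^ k) ⟨_, heH⟩ l
        have h2 : (scalSub ρ W).subtype (x' ^ k) = z := by
          simp [x', hz]
        rw [h2] at h1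
        have h3 : (scalSub ρ W).subtype (⟨_, heH⟩ : scalSub ρ W) = engelSeq z t N := rfl
        rw [h3, engelSeq_add] at h1
        exact h1
      ext1 v
      obtain ⟨w, hw, u, hu, rfl⟩ := Submodule.exists_add_mem_mem_orthogonal (K := W) v
      rw [map_add, hfix _ (Nat.le_add_right _ _) w hw]
      congr 1
      have h4 := congrArg (fun f : Module.End ℂ (Wᗮ : Submodule ℂ E) => (f ⟨u, hu⟩ : (Wᗮ : Submodule ℂ E))) hl
      have h5 := congrArg (fun u' : (Wᗮ : Submodule ℂ E) => (u' : E)) h4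
      simp only [orthRep_coe, hcoe] at h5
      simpa using h5
    -- back to `x`
    have hcop : Nat.Coprime k p :=
      ((Nat.Prime.coprime_iff_not_dvd hp).mpr (Nat.not_dvd_of_pos_of_lt hk0 hkp)).symm
    obtain ⟨j, -, hj⟩ := Nat.exists_mul_mod_eq_one_of_coprime hcop hp.one_lt
    have hxz : z ^ j = x := by
      rw [hz, ← pow_mul, pow_eq_pow_mod (k * j) hxp, hj, pow_one]
    have := hzH.pow j
    rwa [hxz] at this

end Main

section Rep

variable {G : Type u} [Group G] [Finite G] {V : Type v} [AddCommGroup V] [Module ℂ V]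
  [FiniteDimensional ℂ V]

open Cfsg.Agent.Lib.CharBasic in
/-- The main theorem for an arbitrary finite-dimensional representation. -/
theorem engelIm_of_few (ρ : Representation ℂ G V) {p : ℕ} (hp : p.Prime) {x : G} (hxp : x ^ p = 1)
    (S : Finset ℂ) (hS : 6 ^ (S.card - 1) < p)
    (hev : ∀ (μ : ℂ) (v : V), v ≠ 0 → ρ x v = μ • v → μ ∈ S) : EngelIm ρ x := by
  obtain ⟨E, _, _, _, e, hiso⟩ := exists_isometric_model ρ
  have h := main.{u, u} S.card p hp hS G E (transport e ρ) hiso x hxp S le_rfl (by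
    intro μ v hv hμ
    rw [transport_apply] at hμ
    refine hev μ (e.symm v) (by simpa using hv) ?_
    apply e.injective
    rw [hμ, map_smul, e.apply_symm_apply])
  intro t
  obtain ⟨n, hn⟩ := h t
  refine ⟨n, ?_⟩
  ext1 v
  have h1 := congrArg (fun f : Module.End ℂ E => f (e v)) hn
  simp only [transport_apply, LinearEquiv.symm_apply_apply, Module.End.one_apply] at h1
  exact e.injective h1

/-- In a faithful representation: membership in the Fitting subgroup. -/
theorem mem_fitting_of_few (ρ : Representation ℂ G V) (hρ : Function.Injective ρ) {p : ℕ} (hp : p.Prime)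
    {x : G} (hxp : x ^ p = 1) (S : Finset ℂ) (hS : 6 ^ (S.card - 1) < p)
    (hev : ∀ (μ : ℂ) (v : V), v ≠ 0 → ρ x v = μ • v → μ ∈ S) : x ∈ Cfsg.fittingSubgroup G := by
  rw [mem_fitting_iff]
  intro t
  obtain ⟨n, hn⟩ := engelIm_of_few ρ hp hxp S hS hev t
  refine ⟨n, hρ ?_⟩
  rw [hn, map_one]

end Rep

end Cfsg.Agent.Lib.EigenEngel
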