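import Mathlib

/-!
# Simultaneous eigenspaces of commuting involutions
-/

set_option autoImplicit false

namespace Cfsg.Agent.Lib.ElemEig41

open Module

variable {F V : Type*} [Field F] [AddCommGroup V] [Module F V]

theorem maxGen_eq_eig [FiniteDimensional F V] (h2 : (2 : F) ≠ 0) {f : End F V} (hf : f * f = 1) (μ : F) :
    f.maxGenEigenspace μ = f.eigenspace μ := by
  have hsep : (Polynomial.X ^ 2 - Polynomial.C (1 : F)).Separable :=
    Polynomial.separable_X_pow_sub_C _ (by simpa using h2) one_ne_zero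
  have hs : f.IsSemisimple := by
    apply Module.End.isSemisimple_of_squarefree_aeval_eq_zero hsep.squarefree
    simp [sq, hf]
  exact (Module.End.isFinitelySemisimple_iff_isSemisimple.mpr hs).maxGenEigenspace_eq_eigenspace μ

theorem iSup_maxGen_top (h2 : (2 : F) ≠ 0) {f : End F V} (hf : f * f = 1) :
    ⨆ μ, f.maxGenEigenspace μ = ⊤ := by
  rw [eq_top_iff]
  intro v _
  have h1 : f (v + f v) = (1 : F) • (v + f v) := by
    have : f (f v) = v := by
      have := LinearMap.congr_fun hf v
      simpa using this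
    simp [this, add_comm]
  have h3 : f (v - f v) = (-1 : F) • (v - f v) := by
    have : f (f v) = v := by
      have := LinearMap.congr_fun hf v
      simpa using this
    simp [this]
  have h4 : v = (2 : F)⁻¹ • (v + f v) + (2 : F)⁻¹ • (v - f v) := by
    rw [← smul_add]
    have : v + f v + (v - f v) = (2 : F) • v := by
      rw [two_smul]; abel
    rw [this, smul_smul, inv_mul_cancel₀ h2, one_smul]
  rw [h4]
  apply Submodule.add_mem
  · apply Submodule.smul_mem
    apply Submodule.mem_iSup_of_mem (1 : F)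
    rw [Module.End.mem_maxGenEigenspace]
    refine ⟨1, ?_⟩
    simp [h1]
  · apply Submodule.smul_mem
    apply Submodule.mem_iSup_of_mem (-1 : F)
    rw [Module.End.mem_maxGenEigenspace]
    refine ⟨1, ?_⟩
    simp only [pow_one, LinearMap.sub_apply, LinearMap.smul_apply, Module.End.one_apply]
    rw [h3, sub_self]

variable {ι : Type*}

/-- Simultaneous eigenspace. -/
def eig (f : ι → End F V) (χ : ι → F) : Submodule F V := ⨅ i, (f i).eigenspace (χ i)

theorem mem_eig {f : ι → End F V} {χ : ι → F} {v : V} : v ∈ eig f χ ↔ ∀ i, f i v = χ i • v := by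
  simp [eig, Submodule.mem_iInf, Module.End.mem_eigenspace_iff]

section
variable [FiniteDimensional F V] {f : ι → End F V}

theorem eig_eq (h2 : (2 : F) ≠ 0) (hf : ∀ i, f i * f i = 1) (χ : ι → F) :
    eig f χ = ⨅ i, (f i).maxGenEigenspace (χ i) := by
  simp only [eig, maxGen_eq_eig h2 (hf _)]

theorem iSup_eig (h2 : (2 : F) ≠ 0) (hc : ∀ i j, Commute (f i) (f j)) (hf : ∀ i, f i * f i = 1) :
    ⨆ χ, eig f χ = ⊤ := by
  simp only [eig_eq h2 hf]
  exact Module.End.iSup_iInf_maxGenEigenspace_eq_top_of_iSup_maxGenEigenspace_eq_top_of_commute f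
    (fun i j _ => hc i j) (fun i => iSup_maxGen_top h2 (hf i))

theorem indep_eig (h2 : (2 : F) ≠ 0) (hc : ∀ i j, Commute (f i) (f j)) (hf : ∀ i, f i * f i = 1) :
    iSupIndep (eig f) := by
  have : eig f = fun χ => ⨅ i, (f i).maxGenEigenspace (χ i) := funext (eig_eq h2 hf)
  rw [this]
  apply Module.End.independent_iInf_maxGenEigenspace_of_forall_mapsTo
  intro i j φ
  exact Module.End.mapsTo_maxGenEigenspace_of_comm (hc j i) φ

theorem sum_finrank [Finite ι] [Finite F] (h2 : (2 : F) ≠ 0) (hc : ∀ i j, Commute (f i) (f j))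
    (hf : ∀ i, f i * f i = 1) [Fintype (ι → F)] :
    ∑ χ : ι → F, finrank F (eig f χ) = finrank F V := by
  classical
  have hint : DirectSum.IsInternal (eig f) :=
    DirectSum.isInternal_submodule_of_iSupIndep_of_iSup_eq_top (indep_eig h2 hc hf) (iSup_eig h2 hc hf)
  have e := LinearEquiv.ofBijective (DirectSum.coeLinearMap (eig f)) hint
  rw [← e.finrank_eq, Module.finrank_directSum]

theorem val_of_mem_eig {χ : ι → F} {v : V} (hv : v ∈ eig f χ) (hv0 : v ≠ 0) (hf : ∀ i, f i * f i = 1) (i : ι) :
    χ i = 1 ∨ χ i = -1 := by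
  have h1 := mem_eig.1 hv i
  have h3 : f i (f i v) = v := by
    have := LinearMap.congr_fun (hf i) v
    simpa using this
  rw [h1, map_smul, h1, smul_smul] at h3
  have h4 : (χ i * χ i - 1) • v = 0 := by
    rw [sub_smul, h3, one_smul, sub_self]
  have h5 : χ i * χ i - 1 = 0 := (smul_eq_zero.1 h4).resolve_right hv0
  have h6 : (χ i - 1) * (χ i + 1) = 0 := by linear_combination h5
  rcases mul_eq_zero.1 h6 with h | h
  · left; linear_combination h
  · right; linear_combination h

/-- The support. -/
noncomputable def supp (f : ι → End F V) [Fintype (ι → F)] : Finset (ι → F) := by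
  classical exact Finset.univ.filter (fun χ => eig f χ ≠ ⊥)

theorem mem_supp [Fintype (ι → F)] {χ : ι → F} : χ ∈ supp f ↔ eig f χ ≠ ⊥ := by
  classical simp [supp]

theorem sum_supp [Finite ι] [Finite F] (h2 : (2 : F) ≠ 0) (hc : ∀ i j, Commute (f i) (f j))
    (hf : ∀ i, f i * f i = 1) [Fintype (ι → F)] :
    ∑ χ ∈ supp f, finrank F (eig f χ) = finrank F V := by
  classical
  rw [← sum_finrank h2 hc hf]
  apply Finset.sum_subset (Finset.subset_univ _)
  intro χ _ hχ
  have : eig f χ = ⊥ := by
    by_contra h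
    exact hχ (mem_supp.2 h)
  rw [this]
  simp

theorem card_le [Finite ι] [Finite F] (h2 : (2 : F) ≠ 0) (hc : ∀ i j, Commute (f i) (f j))
    (hf : ∀ i, f i * f i = 1) (hinj : Function.Injective f) [Fintype (ι → F)] :
    Nat.card ι ≤ 2 ^ (supp f).card := by
  classical
  let φ : ι → (↥(supp f) → Bool) := fun i χ => decide ((χ : ι → F) i = 1)
  have hφ : Function.Injective φ := by
    intro i j hij
    apply hinj
    have hval : ∀ χ ∈ supp f, χ i = χ j := by
      intro χ hχ
      have h3 := congrFun hij ⟨χ, hχ⟩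
      obtain ⟨v, hv, hv0⟩ := Submodule.exists_mem_ne_zero_of_ne_bot (mem_supp.1 hχ)
      have h4 := val_of_mem_eig hv hv0 hf i
      have h5 := val_of_mem_eig hv hv0 hf j
      have h1ne : (1 : F) ≠ -1 := by
        intro h
        apply h2
        linear_combination h
      have h6 : (χ i = 1) ↔ (χ j = 1) := by
        simpa [φ] using h3
      rcases h4 with h4 | h4 <;> rcases h5 with h5 | h5
      · rw [h4, h5]
      · exact absurd (h6.1 h4) (by rw [h5]; exact h1ne.symm)
      · exact absurd (h6.2 h5) (by rw [h4]; exact h1ne.symm)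
      · rw [h4, h5]
    have hle : ⨆ χ, eig f χ ≤ LinearMap.eqLocus (f i) (f j) := by
      apply iSup_le
      intro χ v hv
      by_cases hχ : eig f χ = ⊥
      · rw [hχ] at hv
        rw [(Submodule.mem_bot F).1 hv]
        simp
      · rw [LinearMap.mem_eqLocus, mem_eig.1 hv i, mem_eig.1 hv j, hval χ (mem_supp.2 hχ)]
    rw [iSup_eig h2 hc hf] at hle
    apply LinearMap.ext
    intro v
    exact hle (Submodule.mem_top)
  haveI : Fintype ι := Fintype.ofFinite ι
  calc Nat.card ι ≤ Nat.card (↥(supp f) → Bool) := Nat.card_le_card_of_injective φ hφ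
    _ = 2 ^ (supp f).card := by simp [Nat.card_eq_fintype_card]

end

end Cfsg.Agent.Lib.ElemEig41
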