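import Mathlib

/-!
# Counting subspaces of a finite vector space
-/

set_option autoImplicit false
set_option linter.unusedVariables false
set_option linter.unusedSectionVars false
set_option linter.style.haveILetI false

namespace Cfsg.Agent.Lib.ElusiveCount

open Module Finset

/-- Counting by fibres. -/
lemma card_fiberwise {α β : Type*} [Finite α] [Finite β] (f : α → β) (Q : β → Prop) (k : ℕ)
    (h : ∀ b, Q b → Nat.card {a // f a = b} = k) :
    Nat.card {a // Q (f a)} = Nat.card {b // Q b} * k := by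
  classical
  haveI : Fintype {b // Q b} := Fintype.ofFinite _
  let e : {a // Q (f a)} ≃ Σ b : {b // Q b}, {a // f a = b.1} :=
    { toFun := fun a => ⟨⟨f a.1, a.2⟩, ⟨a.1, rfl⟩⟩
      invFun := fun z => ⟨z.2.1, by rw [z.2.2]; exact z.1.2⟩
      left_inv := fun a => rfl
      right_inv := by
        rintro ⟨⟨b, hb⟩, ⟨a, ha⟩⟩
        have ha' : f a = b := ha
        subst ha'
        rfl }
  rw [Nat.card_congr e, Nat.card_sigma]
  have : ∀ b : {b // Q b}, Nat.card {a // f a = b.1} = k := fun b => h b.1 b.2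
  simp only [this, Finset.sum_const, Finset.card_univ, smul_eq_mul, Nat.card_eq_fintype_card]

variable {F V : Type*} [Field F] [Fintype F] [AddCommGroup V] [Module F V] [FiniteDimensional F V]

/-- The product `(q^k - 1)(q^{k-1} - 1) ⋯` with `m` factors. -/
def BB (q k m : ℕ) : ℕ := ∏ j ∈ range m, (q ^ (k - j) - 1)

lemma prod_sub_pow (q k m : ℕ) (hq : 1 ≤ q) (hm : m ≤ k) :
    ∏ i : Fin m, (q ^ k - q ^ (i : ℕ)) = (∏ j ∈ range m, q ^ j) * BB q k m := by
  rw [Fin.prod_univ_eq_prod_range (fun j => q ^ k - q ^ j) m, BB, ← prod_mul_distrib]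
  apply prod_congr rfl
  intro j hj
  rw [mem_range] at hj
  have h1 : q ^ k = q ^ j * q ^ (k - j) := by
    rw [← pow_add]
    congr 1
    omega
  rw [h1, Nat.mul_sub, mul_one]

/-- The count of subspaces. -/
theorem card_subspaces_mul {n m : ℕ} (hn : finrank F V = n) (hm : m ≤ n) :
    Nat.card {W : Submodule F V // finrank F W = m} * BB (Fintype.card F) m m = BB (Fintype.card F) n m := by
  classical
  haveI : Finite V := Module.finite_of_finite F
  haveI : Finite (Submodule F V) := Finite.of_injective _ SetLike.coe_injective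
  have hq : 1 ≤ Fintype.card F := Fintype.card_pos
  set q := Fintype.card F with hqdef
  have h1 := card_linearIndependent (K := F) (V := V) (k := m) (by rw [hn]; exact hm)
  rw [hn, prod_sub_pow _ _ _ (by rw [← hqdef]; exact hq) hm, ← hqdef] at h1
  let f : {s : Fin m → V // LinearIndependent F s} → {W : Submodule F V // finrank F W = m} :=
    fun s => ⟨Submodule.span F (Set.range s.1), by
      have := finrank_span_eq_card s.2
      simpa using this⟩
  have h2 := card_fiberwise f (fun _ => True) (∏ i : Fin m, (q ^ m - q ^ (i : ℕ))) (by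
    rintro ⟨W, hW⟩ -
    have h3 := card_linearIndependent (K := F) (V := W) (k := m) (by rw [hW])
    rw [hW, ← hqdef] at h3
    rw [← h3]
    refine Nat.card_congr
      { toFun := fun s => ⟨fun i => ⟨s.1.1 i, ?_⟩, ?_⟩
        invFun := fun s => ⟨⟨fun i => (s.1 i : V), ?_⟩, ?_⟩
        left_inv := ?_
        right_inv := ?_ }
    · have h4 : Submodule.span F (Set.range s.1.1) = W := congrArg Subtype.val s.2
      have h9 : (s.1.1 i) ∈ Submodule.span F (Set.range s.1.1) := Submodule.subset_span ⟨i, rfl⟩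
      rw [h4] at h9
      exact h9
    · apply LinearIndependent.of_comp W.subtype
      exact s.1.2
    · exact s.2.map' W.subtype W.ker_subtype
    · apply Subtype.ext
      have h5 : s.2.map' W.subtype W.ker_subtype = s.2.map' W.subtype W.ker_subtype := rfl
      have h6 : LinearIndependent F s.1 := s.2
      have h7 : Submodule.span F (Set.range s.1) = ⊤ :=
        h6.span_eq_top_of_card_eq_finrank' (by simp [hW])
      change Submodule.span F (Set.range (fun i => (s.1 i : V))) = W
      have h8 : Set.range (fun i => (s.1 i : V)) = W.subtype '' Set.range s.1 := by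
        ext x
        simp
      rw [h8, ← Submodule.map_span, h7]
      simp
    · rintro ⟨⟨s, hs⟩, hs2⟩
      rfl
    · rintro ⟨s, hs⟩
      rfl)
  simp only [Nat.card_congr (Equiv.subtypeUnivEquiv (fun _ => True.intro))] at h2
  rw [h1, prod_sub_pow _ _ _ hq le_rfl] at h2
  have hpos : 0 < ∏ j ∈ range m, q ^ j := prod_pos (fun j _ => pow_pos (by omega) j)
  apply Nat.eq_of_mul_eq_mul_left hpos
  rw [h2]
  ring

/-- Products over a range from the top. -/
lemma BB_split (q : ℕ) {k m l : ℕ} (hl : m + l ≤ k) : BB q k (m + l) = BB q k m * BB q (k - m) l := by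
  unfold BB
  rw [prod_range_add]
  congr 1
  apply prod_congr rfl
  intro j _
  congr 2
  omega

section prime

variable {p : ℕ} [hp : Fact p.Prime] [CharP F p]

include p in
lemma ne_char_of_dvd {r k : ℕ} (hr : r.Prime) (hk : k ≠ 0) (h : r ∣ Fintype.card F ^ k - 1) : r ≠ p := by
  rintro rfl
  obtain ⟨n, -, hn⟩ := FiniteField.card F r
  have h1 : r ∣ Fintype.card F ^ k := by
    rw [hn]
    exact dvd_pow (dvd_pow_self _ n.ne_zero) hk
  have h2 : 1 ≤ Fintype.card F ^ k := Nat.one_le_pow _ _ Fintype.card_pos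
  have h3 := (Nat.dvd_sub h1 h)
  have h4 : Fintype.card F ^ k - (Fintype.card F ^ k - 1) = 1 := by omega
  rw [h4] at h3
  exact hr.one_lt.ne' (Nat.dvd_one.mp h3)

include p in
/-- A prime dividing the number of `m`-subspaces. -/
theorem prime_dvd_card {n m r : ℕ} (hn : finrank F V = n) (hm : m ≤ n) (hm1 : 1 ≤ m) (hr : r.Prime)
    (h : r ∣ Nat.card {W : Submodule F V // finrank F W = m}) :
    r ≠ p ∧ ∃ j, j < m ∧ r ∣ Fintype.card F ^ (n - j) - 1 := by
  have h1 := card_subspaces_mul (F := F) (V := V) hn hm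
  have h2 : r ∣ BB (Fintype.card F) n m := by
    rw [← h1]
    exact h.trans (dvd_mul_right _ _)
  unfold BB at h2
  obtain ⟨j, hj, hj2⟩ := (Prime.dvd_finsetProd_iff hr.prime _).mp h2
  rw [mem_range] at hj
  exact ⟨ne_char_of_dvd (p := p) hr (by omega) hj2, j, hj, hj2⟩

omit [Fintype F] [FiniteDimensional F V] in
/-- Subspaces of a subspace. -/
lemma card_flags_fibre (W : Submodule F V) (m : ℕ) :
    Nat.card {a : {P : Submodule F V × Submodule F V // P.1 ≤ P.2 ∧ finrank F P.1 = m} // a.1.2 = W} =
      Nat.card {U : Submodule F W // finrank F U = m} := by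
  refine Nat.card_congr ?_
  refine
    { toFun := fun a => ⟨a.1.1.1.comap W.subtype, ?_⟩
      invFun := fun U => ⟨⟨(U.1.map W.subtype, W), ?_, ?_⟩, rfl⟩
      left_inv := ?_
      right_inv := ?_ }
  · obtain ⟨⟨⟨U, W'⟩, h1, h2⟩, h3⟩ := a
    dsimp only at h1 h2 h3 ⊢
    subst h3
    rw [← Submodule.finrank_map_subtype_eq, Submodule.map_comap_subtype, inf_eq_right.mpr h1, h2]
  · exact Submodule.map_subtype_le _ _
  · dsimp only
    rw [Submodule.finrank_map_subtype_eq]
    exact U.2
  · rintro ⟨⟨⟨U, W'⟩, h1, h2⟩, h3⟩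
    dsimp only at h1 h2 h3
    subst h3
    apply Subtype.ext
    apply Subtype.ext
    apply Prod.ext
    · dsimp only
      rw [Submodule.map_comap_subtype, inf_eq_right.mpr h1]
    · rfl
  · rintro ⟨U, h⟩
    apply Subtype.ext
    dsimp only
    exact Submodule.comap_map_eq_of_injective W.injective_subtype U

lemma BB_pos {q : ℕ} (hq : 2 ≤ q) {k m : ℕ} (hm : m ≤ k) : 0 < BB q k m := by
  unfold BB
  apply Finset.prod_pos
  intro j hj
  rw [mem_range] at hj
  have : 2 ^ 1 ≤ q ^ (k - j) := by
    calc 2 ^ 1 ≤ 2 ^ (k - j) := Nat.pow_le_pow_right (by norm_num) (by omega)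
      _ ≤ q ^ (k - j) := Nat.pow_le_pow_left hq _
  omega

/-- The Gaussian binomial is symmetric. -/
lemma card_subspaces_symm {n m : ℕ} (hn : finrank F V = n) (hm : m ≤ n) :
    Nat.card {W : Submodule F V // finrank F W = n - m} * BB (Fintype.card F) m m = BB (Fintype.card F) n m := by
  have hq : 2 ≤ Fintype.card F := Fintype.one_lt_card
  have h1 := card_subspaces_mul (F := F) (V := V) hn (m := n - m) (by omega)
  have h2 := BB_split (Fintype.card F) (k := n) (m := m) (l := n - m) (by omega)
  have h3 := BB_split (Fintype.card F) (k := n) (m := n - m) (l := m) (by omega)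
  have h4 : m + (n - m) = n - m + m := by omega
  rw [h4, h3] at h2
  have h5 : n - (n - m) = m := by omega
  rw [h5] at h2
  have h6 : 0 < BB (Fintype.card F) (n - m) (n - m) := BB_pos hq le_rfl
  apply Nat.eq_of_mul_eq_mul_right h6
  rw [← h2, ← h1]
  ring

include p in
/-- A prime dividing the number of flags. -/
theorem prime_dvd_card_flags {n m r : ℕ} (hn : finrank F V = n) (hm : 2 * m ≤ n) (hm1 : 1 ≤ m) (hr : r.Prime)
    (h : r ∣ Nat.card {P : Submodule F V × Submodule F V // P.1 ≤ P.2 ∧ finrank F P.1 = m ∧ finrank F P.2 = n - m}) :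
    r ≠ p ∧ ∃ j, j < m ∧ (r ∣ Fintype.card F ^ (n - j) - 1 ∨ r ∣ Fintype.card F ^ (n - m - j) - 1) := by
  classical
  haveI : Finite V := Module.finite_of_finite F
  haveI : Finite (Submodule F V) := inferInstance
  have hq : 2 ≤ Fintype.card F := Fintype.one_lt_card
  have hpos : 0 < BB (Fintype.card F) m m := BB_pos hq le_rfl
  set k := BB (Fintype.card F) (n - m) m / BB (Fintype.card F) m m with hk
  have h1 : ∀ W : Submodule F V, finrank F W = n - m →
      Nat.card {a : {P : Submodule F V × Submodule F V // P.1 ≤ P.2 ∧ finrank F P.1 = m} // a.1.2 = W} = k := by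
    intro W hW
    rw [card_flags_fibre W m]
    have h2 := card_subspaces_mul (F := F) (V := W) (n := n - m) (m := m) hW (by omega)
    rw [hk, ← h2, Nat.mul_div_cancel _ hpos]
  have h2 := card_fiberwise
    (fun a : {P : Submodule F V × Submodule F V // P.1 ≤ P.2 ∧ finrank F P.1 = m} => a.1.2)
    (fun W => finrank F W = n - m) k h1
  have h3 : Nat.card {P : Submodule F V × Submodule F V // P.1 ≤ P.2 ∧ finrank F P.1 = m ∧ finrank F P.2 = n - m}
      = Nat.card {a : {P : Submodule F V × Submodule F V // P.1 ≤ P.2 ∧ finrank F P.1 = m} // finrank F a.1.2 = n - m} := by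
    refine Nat.card_congr ?_
    exact
      { toFun := fun P => ⟨⟨P.1, P.2.1, P.2.2.1⟩, P.2.2.2⟩
        invFun := fun a => ⟨a.1.1, a.1.2.1, a.1.2.2, a.2⟩
        left_inv := fun _ => rfl
        right_inv := fun _ => rfl }
  rw [h3, h2] at h
  have h4 := card_subspaces_symm (F := F) (V := V) hn (m := m) (by omega)
  have hkk : k * BB (Fintype.card F) m m = BB (Fintype.card F) (n - m) m := by
    have h5 := card_subspaces_mul (F := F) (V := Fin (n - m) → F) (n := n - m) (m := m) (by simp) (by omega)
    rw [hk, ← h5, Nat.mul_div_cancel _ hpos]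
  have h5 : ∃ j, j < m ∧ (r ∣ Fintype.card F ^ (n - j) - 1 ∨ r ∣ Fintype.card F ^ (n - m - j) - 1) := by
    rcases (Nat.Prime.dvd_mul hr).mp h with h6 | h6
    · have h7 : r ∣ BB (Fintype.card F) n m := by
        rw [← h4]
        exact h6.trans (dvd_mul_right _ _)
      unfold BB at h7
      obtain ⟨j, hj, hj2⟩ := (Prime.dvd_finsetProd_iff hr.prime _).mp h7
      rw [mem_range] at hj
      exact ⟨j, hj, Or.inl hj2⟩
    · have h7 : r ∣ BB (Fintype.card F) (n - m) m := by
        rw [← hkk]
        exact h6.trans (dvd_mul_right _ _)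
      unfold BB at h7
      obtain ⟨j, hj, hj2⟩ := (Prime.dvd_finsetProd_iff hr.prime _).mp h7
      rw [mem_range] at hj
      exact ⟨j, hj, Or.inr hj2⟩
  refine ⟨?_, h5⟩
  obtain ⟨j, hj, hj2 | hj2⟩ := h5
  · exact ne_char_of_dvd (p := p) hr (by omega) hj2
  · exact ne_char_of_dvd (p := p) hr (by omega) hj2

end prime

end Cfsg.Agent.Lib.ElusiveCount
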