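import Mathlib
import Cfsg.Agent.Lib.Subnormal

/-!
Generalized zipper lemma (Flavell): for a proper subgroup `A` of a finite group `G` with normal
closure `G`, let `Y` be the join of all proper subgroups `H ≥ A` which are the normal closure of `A`
in themselves.  Then `Y = G` or `A` lies in a unique maximal subgroup.
-/

set_option autoImplicit false

namespace Cfsg.Agent.Lib.GenZipper

open Subgroup
open scoped Pointwise

universe u

variable {G : Type u} [Group G]

/-- The conjugate `g H g⁻¹`. -/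
def cj (g : G) (H : Subgroup G) : Subgroup G := H.map (MulAut.conj g).toMonoidHom

theorem mem_cj {g x : G} {H : Subgroup G} : x ∈ cj g H ↔ g⁻¹ * x * g ∈ H := by
  constructor
  · rintro ⟨y, hy, rfl⟩
    simpa [mul_assoc] using hy
  · intro h
    exact ⟨_, h, by simp [mul_assoc]⟩

theorem conj_mem_cj {g x : G} {H : Subgroup G} (hx : x ∈ H) : g * x * g⁻¹ ∈ cj g H :=
  mem_cj.2 (by simpa [mul_assoc] using hx)

theorem cj_one (H : Subgroup G) : cj 1 H = H := by
  ext x; simp [mem_cj]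

theorem cj_mul (g h : G) (H : Subgroup G) : cj (g * h) H = cj g (cj h H) := by
  ext x; simp [mem_cj, mul_assoc]

theorem cj_inv_cj (g : G) (H : Subgroup G) : cj g⁻¹ (cj g H) = H := by
  rw [← cj_mul]; simp [cj_one]

theorem cj_cj_inv (g : G) (H : Subgroup G) : cj g (cj g⁻¹ H) = H := by
  rw [← cj_mul]; simp [cj_one]

theorem cj_mono (g : G) {H K : Subgroup G} (h : H ≤ K) : cj g H ≤ cj g K := map_mono h

theorem cj_le_cj_iff {g : G} {H K : Subgroup G} : cj g H ≤ cj g K ↔ H ≤ K := by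
  constructor
  · intro h
    have := cj_mono g⁻¹ h
    rwa [cj_inv_cj, cj_inv_cj] at this
  · exact cj_mono g

theorem cj_top (g : G) : cj g (⊤ : Subgroup G) = ⊤ := by
  ext x; simp [mem_cj]

theorem cj_eq_top_iff {g : G} {H : Subgroup G} : cj g H = ⊤ ↔ H = ⊤ := by
  constructor
  · intro h
    have := congrArg (cj g⁻¹) h
    rwa [cj_inv_cj, cj_top] at this
  · rintro rfl; exact cj_top g

theorem cj_inj {g : G} {H K : Subgroup G} : cj g H = cj g K ↔ H = K := by
  constructor
  · intro h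
    have := congrArg (cj g⁻¹) h
    rwa [cj_inv_cj, cj_inv_cj] at this
  · rintro rfl; rfl

theorem cj_sup (g : G) (H K : Subgroup G) : cj g (H ⊔ K) = cj g H ⊔ cj g K := Subgroup.map_sup _ _ _

theorem cj_eq_of_mem {g : G} {H : Subgroup G} (hg : g ∈ H) : cj g H = H := by
  ext x
  rw [mem_cj]
  constructor
  · intro h
    have := H.mul_mem (H.mul_mem hg h) (H.inv_mem hg)
    simpa [mul_assoc] using this
  · intro h
    exact H.mul_mem (H.mul_mem (H.inv_mem hg) h) hg

theorem card_cj (g : G) (H : Subgroup G) : Nat.card (cj g H) = Nat.card H :=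
  Nat.card_congr (H.equivMapOfInjective _ (MulAut.conj g).injective).toEquiv.symm

theorem mem_normalizer_iff_cj {g : G} {H : Subgroup G} :
    g ∈ normalizer (H : Set G) ↔ cj g H = H := by
  rw [Subgroup.mem_normalizer_iff]
  constructor
  · intro h
    ext x
    rw [mem_cj]
    have := h (g⁻¹ * x * g)
    rw [show g * (g⁻¹ * x * g) * g⁻¹ = x by group] at this
    exact this
  · intro h x
    conv_rhs => rw [← h]
    rw [mem_cj]
    simp [mul_assoc]

/-! ### Relative subnormality -/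

/-- `SN X H`: `H` is subnormal in `X`. -/
inductive SN (X : Subgroup G) : Subgroup G → Prop
  | refl : SN X X
  | step {H K : Subgroup G} : SN X K → H ≤ K → K ≤ normalizer (H : Set G) → SN X H

theorem SN.le {X H : Subgroup G} (h : SN X H) : H ≤ X := by
  induction h with
  | refl => exact le_rfl
  | step _ hHK _ ih => exact hHK.trans ih

theorem SN.trans {X K H : Subgroup G} (h1 : SN X K) (h2 : SN K H) : SN X H := by
  induction h2 with
  | refl => exact h1
  | step _ hHK hN ih => exact SN.step ih hHK hN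

theorem SN.inf {X H : Subgroup G} (h : SN X H) (Z : Subgroup G) : SN (X ⊓ Z) (H ⊓ Z) := by
  induction h with
  | refl => exact SN.refl
  | @step H K _ hHK hN ih =>
    refine SN.step ih (inf_le_inf_right _ hHK) ?_
    intro x hx
    rw [Subgroup.mem_normalizer_iff]
    intro y
    have h1 := (Subgroup.mem_normalizer_iff.1 (hN hx.1)) y
    constructor
    · rintro ⟨hy1, hy2⟩
      exact ⟨h1.1 hy1, Z.mul_mem (Z.mul_mem hx.2 hy2) (Z.inv_mem hx.2)⟩
    · rintro ⟨hy1, hy2⟩
      refine ⟨h1.2 hy1, ?_⟩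
      have := Z.mul_mem (Z.mul_mem (Z.inv_mem hx.2) hy2) hx.2
      simpa [mul_assoc] using this

theorem SN.restrict {X H Z : Subgroup G} (h : SN X H) (h1 : H ≤ Z) (h2 : Z ≤ X) : SN Z H := by
  have := h.inf Z
  rwa [inf_eq_right.2 h2, inf_eq_left.2 h1] at this

theorem SN.exists_normal {X H : Subgroup G} (h : SN X H) (hne : H ≠ X) :
    ∃ N : Subgroup G, H ≤ N ∧ N ≤ X ∧ N ≠ X ∧ X ≤ normalizer (N : Set G) := by
  induction h with
  | refl => exact absurd rfl hne
  | @step H K hK hHK hN ih =>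
    by_cases hKX : K = X
    · subst hKX
      exact ⟨H, le_rfl, hHK, hne, hN⟩
    · obtain ⟨N, h1, h2, h3, h4⟩ := ih hKX
      exact ⟨N, hHK.trans h1, h2, h3, h4⟩

theorem cj_le_normalizer {g : G} {K H : Subgroup G} (h : K ≤ normalizer (H : Set G)) :
    cj g K ≤ normalizer (cj g H : Set G) := by
  intro x hx
  rw [mem_normalizer_iff_cj]
  have h1 : g⁻¹ * x * g ∈ normalizer (H : Set G) := h (mem_cj.1 hx)
  rw [mem_normalizer_iff_cj] at h1
  calc cj x (cj g H) = cj g (cj (g⁻¹ * x * g) H) := by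
        rw [← cj_mul, ← cj_mul]; congr 1; group
    _ = cj g H := by rw [h1]

theorem SN.conj {X H : Subgroup G} (h : SN X H) (g : G) : SN (cj g X) (cj g H) := by
  induction h with
  | refl => exact SN.refl
  | step _ hHK hN ih => exact SN.step ih (cj_mono g hHK) (cj_le_normalizer hN)

theorem SN.isSubnormal {X H : Subgroup G} (h : SN X H) : (H.subgroupOf X).IsSubnormal := by
  induction h with
  | refl => simp
  | @step H K hK hHK hN ih =>
    have hle : H.subgroupOf X ≤ K.subgroupOf X := fun x hx => hHK hx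
    refine Subgroup.IsSubnormal.step _ _ hle ih ?_
    rw [Subgroup.normal_subgroupOf_iff_le_normalizer hle]
    intro x hx
    rw [Subgroup.mem_normalizer_iff]
    intro y
    have h1 := (Subgroup.mem_normalizer_iff.1 (hN hx)) (y : G)
    simpa [Subgroup.mem_subgroupOf] using h1

theorem SN.of_isSubnormal {X : Subgroup G} {H' : Subgroup X} (h : H'.IsSubnormal) :
    SN X (H'.map X.subtype) := by
  induction h with
  | top =>
    have : (⊤ : Subgroup X).map X.subtype = X := by
      rw [← MonoidHom.range_eq_map, range_subtype]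
    rw [this]
    exact SN.refl
  | step H K hHK _ hN ih =>
    refine SN.step ih (map_mono hHK) ?_
    rw [Subgroup.normal_subgroupOf_iff_le_normalizer hHK] at hN
    exact (map_mono hN).trans (Subgroup.le_normalizer_map _)

theorem sSup_isSubnormal' {Q : Type*} [Group Q] [Finite Q] (S : Set (Subgroup Q))
    (hS : ∀ U ∈ S, U.IsSubnormal) : (sSup S).IsSubnormal := by
  let S' : Set (Subgroup Q) := {U | ∃ V ∈ S, ∃ g : Q, U = MulAut.conj g • V}
  refine Cfsg.Agent.Lib.Subnormal.sSup_isSubnormal S' ?_ ?_ S ?_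
  · rintro U ⟨V, hV, g, rfl⟩
    exact (hS V hV).smul _
  · rintro U ⟨V, hV, g, rfl⟩ g'
    exact ⟨V, hV, g' * g, by rw [map_mul, mul_smul]⟩
  · intro U hU
    exact ⟨U, hU, 1, by simp⟩

theorem SN.sSup_mem [Finite G] {X : Subgroup G} (S : Set (Subgroup G)) (hS : ∀ U ∈ S, SN X U) :
    SN X (sSup S) := by
  have h1 := sSup_isSubnormal' ((fun U : Subgroup G => U.subgroupOf X) '' S) (by
    rintro _ ⟨U, hU, rfl⟩
    exact (hS U hU).isSubnormal)
  have h2 := SN.of_isSubnormal h1
  have h3 : (sSup ((fun U : Subgroup G => U.subgroupOf X) '' S)).map X.subtype = sSup S := by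
    rw [Cfsg.Agent.Lib.Subnormal.map_sSup_eq]
    congr 1
    ext U
    constructor
    · rintro ⟨_, ⟨V, hV, rfl⟩, rfl⟩
      rw [Subgroup.map_subgroupOf_eq_of_le (hS V hV).le]
      exact hV
    · intro hU
      exact ⟨_, ⟨U, hU, rfl⟩, Subgroup.map_subgroupOf_eq_of_le (hS U hU).le⟩
  rwa [h3] at h2

/-! ### Normal closures within a subgroup -/

/-- `Gen A H`: no proper subgroup of `H` containing `A` is normal in `H`. -/
def Gen (A H : Subgroup G) : Prop :=
  ∀ N : Subgroup G, A ≤ N → N ≤ H → H ≤ normalizer (N : Set G) → N = H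

theorem Gen.self (A : Subgroup G) : Gen A A := fun _ h1 h2 _ => le_antisymm h2 h1

theorem Gen.conj {A H : Subgroup G} (h : Gen A H) (g : G) : Gen (cj g A) (cj g H) := by
  intro N h1 h2 h3
  have h4 := h (cj g⁻¹ N) (by rw [← cj_le_cj_iff (g := g), cj_cj_inv]; exact h1)
    (by rw [← cj_le_cj_iff (g := g), cj_cj_inv]; exact h2)
    (by
      have := cj_le_normalizer (g := g⁻¹) h3
      rwa [cj_inv_cj] at this)
  rw [← h4, cj_cj_inv]

theorem Gen.top_of_ge {A B : Subgroup G} (h : Gen A ⊤) (hAB : A ≤ B) : Gen B ⊤ :=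
  fun N h1 h2 h3 => h N (hAB.trans h1) h2 h3

theorem Gen.eq_of_SN {A H T : Subgroup G} (h : Gen A H) (hAT : A ≤ T) (hT : SN H T) : T = H := by
  by_contra hne
  obtain ⟨N, h1, h2, h3, h4⟩ := hT.exists_normal hne
  exact h3 (h N (hAT.trans h1) h2 h4)

theorem exists_sn [Finite G] (A X : Subgroup G) (hAX : A ≤ X) :
    ∃ E : Subgroup G, A ≤ E ∧ E ≤ X ∧ SN X E ∧ Gen A E := by
  induction h : Nat.card X using Nat.strong_induction_on generalizing X with
  | _ n ih =>
    by_cases hG : Gen A X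
    · exact ⟨X, hAX, le_rfl, SN.refl, hG⟩
    · simp only [Gen, not_forall] at hG
      obtain ⟨N, h1, h2, h3, h4⟩ := hG
      have hlt : Nat.card N < n := by
        subst h
        by_contra hc
        exact h4 (Subgroup.eq_of_le_of_card_ge h2 (not_lt.1 hc))
      obtain ⟨E, e1, e2, e3, e4⟩ := ih _ hlt N h1 rfl
      exact ⟨E, e1, e2.trans h2, (SN.step SN.refl h2 h3).trans e3, e4⟩

/-- The family of proper subgroups containing `A` in which `A` has full normal closure. -/
def Fam (A : Subgroup G) : Set (Subgroup G) := {H | A ≤ H ∧ H ≠ ⊤ ∧ Gen A H}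

/-- The join of the family. -/
def Y (A : Subgroup G) : Subgroup G := sSup (Fam A)

theorem Fam.le_Y {A H : Subgroup G} (h : H ∈ Fam A) : H ≤ Y A := le_sSup h

theorem Y_cj_le (g : G) (A : Subgroup G) : Y (cj g A) ≤ cj g (Y A) := by
  refine sSup_le ?_
  rintro H ⟨h1, h2, h3⟩
  have h4 : cj g⁻¹ H ∈ Fam A := by
    refine ⟨?_, ?_, ?_⟩
    · rw [← cj_le_cj_iff (g := g), cj_cj_inv]; exact h1
    · rwa [Ne, cj_eq_top_iff]
    · have := h3.conj g⁻¹
      rwa [cj_inv_cj] at this
  have h5 := cj_mono g (Fam.le_Y h4)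
  rwa [cj_cj_inv] at h5

theorem Y_cj (g : G) (A : Subgroup G) : Y (cj g A) = cj g (Y A) := by
  refine le_antisymm (Y_cj_le g A) ?_
  have := Y_cj_le g⁻¹ (cj g A)
  rw [cj_inv_cj] at this
  have h2 := cj_mono g this
  rwa [cj_cj_inv] at h2

theorem card_lt_of_lt [Finite G] {H K : Subgroup G} (h : H ≤ K) (hne : H ≠ K) :
    Nat.card H < Nat.card K := by
  by_contra hc
  exact hne (Subgroup.eq_of_le_of_card_ge h (not_lt.1 hc))

section main

variable [Finite G] {A M : Subgroup G}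

/-- Induction hypothesis of the backward induction. -/
def IH (A : Subgroup G) : Prop :=
  ∀ B : Subgroup G, Nat.card A < Nat.card B → B ≠ ⊤ → Gen B ⊤ →
    Y B = ⊤ ∨ ∃! M' : Subgroup G, IsCoatom M' ∧ B ≤ M'

theorem sn_or_le (hcl : Gen A ⊤) (hYM : Y A ≤ M) (hM : IsCoatom M) (ih : IH A) (g : G)
    (H : Subgroup G) (hH : H ≠ ⊤) (hAH : cj g A ≤ H) : SN H (cj g A) ∨ H ≤ cj g M := by
  obtain ⟨E, e1, e2, e3, e4⟩ := exists_sn (cj g A) H hAH
  by_cases hE : E = cj g A
  · left; rw [← hE]; exact e3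
  right
  have hEne : E ≠ ⊤ := fun h => hH (top_le_iff.1 (h ▸ e2))
  have hcard : Nat.card A < Nat.card E := by
    rw [← card_cj g A]
    exact card_lt_of_lt e1 (Ne.symm hE)
  have hcl' : Gen (cj g A) ⊤ := by
    have := hcl.conj g
    rwa [cj_top] at this
  have hEM : E ≤ cj g M := by
    have h1 : E ≤ Y (cj g A) := Fam.le_Y ⟨e1, hEne, e4⟩
    rw [Y_cj] at h1
    exact h1.trans (cj_mono g hYM)
  have hYE : Y E ≠ ⊤ := by
    intro hc
    have h1 : Y E ≤ cj g M := by
      refine sSup_le ?_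
      rintro H' ⟨h1, h2, h3⟩
      have h4 : Gen (cj g A) H' := by
        intro N n1 n2 n3
        refine h3 N ?_ n2 n3
        have h5 := e4 (N ⊓ E) (le_inf n1 e1) inf_le_right ?_
        · exact inf_eq_right.1 h5
        · intro x hx
          rw [mem_normalizer_iff_cj]
          have h6 : cj x N = N := mem_normalizer_iff_cj.1 (n3 (h1 hx))
          have h7 : cj x E = E := cj_eq_of_mem hx
          ext y
          simp only [mem_cj, Subgroup.mem_inf]
          have h8 : x⁻¹ * y * x ∈ N ↔ y ∈ N := by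
            rw [← mem_cj, h6]
          have h9 : x⁻¹ * y * x ∈ E ↔ y ∈ E := by
            rw [← mem_cj, h7]
          rw [h8, h9]
      have h5 : H' ≤ Y (cj g A) := Fam.le_Y ⟨e1.trans h1, h2, h4⟩
      rw [Y_cj] at h5
      exact h5.trans (cj_mono g hYM)
    rw [hc] at h1
    have : cj g M = ⊤ := top_le_iff.1 h1
    rw [cj_eq_top_iff] at this
    exact hM.1 this
  obtain h | ⟨M', ⟨hM'1, hM'2⟩, hM'3⟩ := ih E hcard hEne (hcl'.top_of_ge e1)
  · exact absurd h hYE
  · have hc : IsCoatom (cj g M) := by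
      constructor
      · rw [Ne, cj_eq_top_iff]; exact hM.1
      · intro K hK
        have h1 : M < cj g⁻¹ K := by
          rw [lt_iff_le_and_ne] at hK ⊢
          refine ⟨?_, ?_⟩
          · rw [← cj_le_cj_iff (g := g), cj_cj_inv]; exact hK.1
          · intro he
            apply hK.2
            rw [he, cj_cj_inv]
        have h2 := hM.2 _ h1
        rwa [cj_eq_top_iff] at h2
    have h1 := hM'3 (cj g M) ⟨hc, hEM⟩
    obtain h2 | ⟨K, hK, hHK⟩ := eq_top_or_exists_le_coatom H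
    · exact absurd h2 hH
    · have h3 := hM'3 K ⟨hK, e2.trans hHK⟩
      rw [h1, ← h3]
      exact hHK

theorem isCoatom_cj (g : G) (hM : IsCoatom M) : IsCoatom (cj g M) := by
  constructor
  · rw [Ne, cj_eq_top_iff]; exact hM.1
  · intro K hK
    have h1 : M < cj g⁻¹ K := by
      rw [lt_iff_le_and_ne] at hK ⊢
      refine ⟨?_, ?_⟩
      · rw [← cj_le_cj_iff (g := g), cj_cj_inv]; exact hK.1
      · intro he
        apply hK.2
        rw [he, cj_cj_inv]
    have h2 := hM.2 _ h1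
    rwa [cj_eq_top_iff] at h2

theorem Gen_cj_top (hcl : Gen A ⊤) (g : G) : Gen (cj g A) ⊤ := by
  have := hcl.conj g
  rwa [cj_top] at this

/-- The key lemma: if two distinct conjugates of `A` generate a subgroup lying in two distinct
maximal subgroups, then each of them lies in the maximal subgroup attached to the other one. -/
theorem pair_le (hcl : Gen A ⊤) (hAM : A ≤ M) (hYM : Y A ≤ M) (hM : IsCoatom M) (ih : IH A)
    (g₁ g₂ : G) (hne : cj g₁ A ≠ cj g₂ A) (K₁ K₂ : Subgroup G) (hK₁ : IsCoatom K₁)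
    (hK₂ : IsCoatom K₂) (hK : K₁ ≠ K₂) (h₁ : cj g₁ A ⊔ cj g₂ A ≤ K₁) (h₂ : cj g₁ A ⊔ cj g₂ A ≤ K₂) :
    cj g₁ A ≤ cj g₂ M := by
  set T := cj g₁ A ⊔ cj g₂ A with hT
  have hTne : T ≠ ⊤ := fun h => hK₁.1 (top_le_iff.1 (h ▸ h₁))
  have hcard : Nat.card A < Nat.card T := by
    rw [← card_cj g₁ A]
    refine card_lt_of_lt le_sup_left ?_
    intro he
    have h3 : cj g₂ A ≤ cj g₁ A := he ▸ (le_sup_right : cj g₂ A ≤ T)
    apply hne
    refine (Subgroup.eq_of_le_of_card_ge h3 ?_).symm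
    rw [card_cj, card_cj]
  have hclT : Gen T ⊤ := (Gen_cj_top hcl g₁).top_of_ge le_sup_left
  -- the members of the family of `T`
  have key : ∀ H ∈ Fam T, H = T ∨ H ≤ cj g₁ M ∨ H ≤ cj g₂ M := by
    rintro H ⟨hTH, hH, hG⟩
    obtain h3 | h3 := sn_or_le hcl hYM hM ih g₁ H hH (le_sup_left.trans hTH)
    · obtain h4 | h4 := sn_or_le hcl hYM hM ih g₂ H hH (le_sup_right.trans hTH)
      · left
        have h5 : SN H T := by
          rw [hT, ← sSup_pair]
          refine SN.sSup_mem _ ?_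
          rintro U (rfl | rfl)
          · exact h3
          · exact h4
        exact (hG.eq_of_SN le_rfl h5).symm
      · exact Or.inr (Or.inr h4)
    · exact Or.inr (Or.inl h3)
  by_contra hcon
  have hT2 : ¬ T ≤ cj g₂ M := fun h => hcon (le_sup_left.trans h)
  have key2 : ∀ H ∈ Fam T, H = T ∨ H ≤ cj g₁ M := by
    intro H hH
    obtain h | h | h := key H hH
    · exact Or.inl h
    · exact Or.inr h
    · exact absurd (hH.1.trans h) hT2
  have hYT : Y T ≠ ⊤ := by
    by_cases hT1 : T ≤ cj g₁ M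
    · intro hc
      have h3 : Y T ≤ cj g₁ M := by
        refine sSup_le ?_
        intro H hH
        obtain h | h := key2 H hH
        · rw [h]; exact hT1
        · exact h
      rw [hc] at h3
      have h4 : cj g₁ M = ⊤ := top_le_iff.1 h3
      rw [cj_eq_top_iff] at h4
      exact hM.1 h4
    · intro hc
      have h3 : Y T ≤ T := by
        refine sSup_le ?_
        intro H hH
        obtain h | h := key2 H hH
        · rw [h]
        · exact absurd (hH.1.trans h) hT1
      rw [hc] at h3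
      exact hTne (top_le_iff.1 h3)
  obtain h | ⟨M', _, hM'3⟩ := ih T hcard hTne hclT
  · exact hYT h
  · exact hK ((hM'3 K₁ ⟨hK₁, h₁⟩).trans (hM'3 K₂ ⟨hK₂, h₂⟩).symm)

theorem cj_M_eq_of_cj_A_eq (hNM : normalizer (A : Set G) ≤ M) {g h : G} (he : cj g A = cj h A) :
    cj g M = cj h M := by
  have h1 : g⁻¹ * h ∈ normalizer (A : Set G) := by
    rw [mem_normalizer_iff_cj, cj_mul, ← he, cj_inv_cj]
  have h2 : cj (g⁻¹ * h) M = M := cj_eq_of_mem (hNM h1)
  calc cj g M = cj g (cj (g⁻¹ * h) M) := by rw [h2]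
    _ = cj h M := by rw [← cj_mul]; congr 1; group

/-- All conjugates of `A` inside a subgroup `D` contained in two maximal subgroups are in each
others' maximal subgroups. -/
theorem le_of_mem_Phi (hcl : Gen A ⊤) (hAM : A ≤ M) (hYM : Y A ≤ M) (hNM : normalizer (A : Set G) ≤ M)
    (hM : IsCoatom M) (ih : IH A) (D K₁ K₂ : Subgroup G) (hK₁ : IsCoatom K₁)
    (hK₂ : IsCoatom K₂) (hK : K₁ ≠ K₂) (h₁ : D ≤ K₁) (h₂ : D ≤ K₂) (g h : G) (hg : cj g A ≤ D)
    (hh : cj h A ≤ D) : cj g A ≤ cj h M := by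
  by_cases he : cj g A = cj h A
  · rw [← cj_M_eq_of_cj_A_eq hNM he]
    exact cj_mono g hAM
  · exact pair_le hcl hAM hYM hM ih g h he K₁ K₂ hK₁ hK₂ hK
      ((sup_le hg hh).trans h₁) ((sup_le hg hh).trans h₂)

omit [Finite G] in
theorem cj_sSup (y : G) (S : Set (Subgroup G)) : cj y (sSup S) = sSup (cj y '' S) :=
  Cfsg.Agent.Lib.Subnormal.map_sSup_eq _ _

/-- The join of the conjugates of `A` in `D` whose attached maximal subgroup is not `L`. -/
def WW (A M D L : Subgroup G) : Subgroup G :=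
  sSup {U | ∃ g : G, U = cj g A ∧ cj g A ≤ D ∧ cj g M ≠ L}

omit [Finite G] in
theorem WW_le (A M D L : Subgroup G) : WW A M D L ≤ D := by
  refine sSup_le ?_
  rintro U ⟨g, rfl, h, _⟩
  exact h

omit [Finite G] in
theorem le_WW {g : G} {D L : Subgroup G} (h1 : cj g A ≤ D) (h2 : cj g M ≠ L) :
    cj g A ≤ WW A M D L :=
  le_sSup ⟨g, rfl, h1, h2⟩

/-- Growth of the normalizer of the subgroup generated by conjugates in a subgroup `D`. -/
theorem growth (hcl : Gen A ⊤) (hYM : Y A ≤ M) (hM : IsCoatom M) (ih : IH A) (D L : Subgroup G)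
    (hL : IsCoatom L) (hDL : D ≤ L) (hne : D ≠ L) :
    ∃ x ∈ L, x ∉ D ∧ x ∈ normalizer ((WW A M D L : Subgroup G) : Set G) := by
  set W := WW A M D L with hW
  have hWD : W ≤ D := WW_le A M D L
  have hWL : SN L W := by
    refine SN.sSup_mem {U | ∃ g : G, U = cj g A ∧ cj g A ≤ D ∧ cj g M ≠ L} ?_
    rintro U ⟨g, rfl, h1, h2⟩
    obtain h3 | h3 := sn_or_le hcl hYM hM ih g L hL.1 (h1.trans hDL)
    · exact h3
    · exfalso
      apply h2
      by_contra h4
      have h5 : L < cj g M := lt_of_le_of_ne h3 (Ne.symm h4)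
      have h6 := hL.2 _ h5
      rw [cj_eq_top_iff] at h6
      exact hM.1 h6
  -- a minimal subnormal overgroup of `W` not contained in `D`
  let 𝓒 : Set (Subgroup G) := {Z | W ≤ Z ∧ SN L Z ∧ ¬ Z ≤ D}
  have h𝓒 : 𝓒.Nonempty := ⟨L, hWD.trans hDL, SN.refl, fun h => hne (le_antisymm hDL h)⟩
  obtain ⟨Z, ⟨hZ1, hZ2, hZ3⟩, hZmin⟩ := Set.exists_min_image 𝓒 (fun Z => Nat.card Z) (Set.toFinite _) h𝓒
  -- the normal closure of `W` in `Z`
  let Z₁ : Subgroup G := ⨆ z : Z, cj (z : G) W
  have hZ₁Z : Z₁ ≤ Z := by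
    refine iSup_le ?_
    rintro ⟨z, hz⟩
    have := cj_mono z hZ1
    rwa [cj_eq_of_mem hz] at this
  have hWZ₁ : W ≤ Z₁ := by
    have : cj (1 : G) W ≤ Z₁ := le_iSup (fun z : Z => cj (z : G) W) (1 : Z)
    rwa [cj_one] at this
  have hZ₁n : Z ≤ normalizer (Z₁ : Set G) := by
    intro x hx
    rw [mem_normalizer_iff_cj]
    have hle : ∀ y ∈ Z, cj y Z₁ ≤ Z₁ := by
      intro y hy
      have : cj y Z₁ ≤ Z₁ := by
        show (⨆ z : Z, cj (z : G) W).map (MulAut.conj y).toMonoidHom ≤ Z₁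
        rw [Subgroup.map_iSup]
        refine iSup_le ?_
        rintro ⟨z, hz⟩
        have h1 : (cj z W).map (MulAut.conj y).toMonoidHom = cj (y * z) W := by
          rw [cj_mul]; rfl
        rw [h1]
        exact le_iSup (fun z : Z => cj (z : G) W) ⟨y * z, Z.mul_mem hy hz⟩
      exact this
    refine Subgroup.eq_of_le_of_card_ge (hle x hx) ?_
    rw [card_cj]
  have hZ₁sn : SN L Z₁ := hZ2.trans (SN.step SN.refl hZ₁Z hZ₁n)
  -- `Z₁` is contained in `D`
  have hZ₁D : Z₁ ≤ D := by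
    by_contra hc
    have h1 : Nat.card Z ≤ Nat.card Z₁ := hZmin Z₁ ⟨hWZ₁, hZ₁sn, hc⟩
    have h2 : Z₁ = Z := Subgroup.eq_of_le_of_card_ge hZ₁Z h1
    have h3 : SN Z W := hWL.restrict hZ1 (hZ2.le)
    by_cases h4 : W = Z
    · exact hZ3 (h4 ▸ hWD)
    · obtain ⟨N, n1, n2, n3, n4⟩ := h3.exists_normal h4
      apply n3
      refine le_antisymm n2 ?_
      rw [← h2]
      refine iSup_le ?_
      rintro ⟨z, hz⟩
      have h5 := cj_mono z n1
      have h6 : cj z N = N := mem_normalizer_iff_cj.1 (n4 hz)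
      rwa [h6] at h5
  -- and equals `W`
  have hZ₁W : Z₁ ≤ W := by
    refine iSup_le ?_
    rintro ⟨z, hz⟩
    have h0 : ∀ g : G, cj g A ≤ D → cj g M ≠ L → cj z (cj g A) ≤ W := by
      intro g h1 h2
      have hmem : cj z W ≤ Z₁ := le_iSup (fun z : Z => cj (z : G) W) ⟨z, hz⟩
      have h3 : cj g A ≤ W := le_WW h1 h2
      have h4 : cj z (cj g A) ≤ D := ((cj_mono z h3).trans hmem).trans hZ₁D
      have h7 : cj z (cj g A) = cj (z * g) A := by rw [cj_mul]
      rw [h7]
      refine le_WW (by rw [← h7]; exact h4) ?_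
      rw [cj_mul]
      intro h5
      apply h2
      have h6 : cj z L = L := cj_eq_of_mem (hZ2.le hz)
      rw [← h6] at h5
      exact cj_inj.1 h5
    show cj z W ≤ W
    have h8 : cj z W = sSup (cj z '' {U | ∃ g : G, U = cj g A ∧ cj g A ≤ D ∧ cj g M ≠ L}) :=
      cj_sSup z _
    rw [h8]
    refine sSup_le ?_
    rintro _ ⟨U, ⟨g, rfl, h1, h2⟩, rfl⟩
    exact h0 g h1 h2
  have hZW : Z₁ = W := le_antisymm hZ₁W hWZ₁
  obtain ⟨x, hx, hxD⟩ := SetLike.not_le_iff_exists.1 hZ3
  refine ⟨x, hZ2.le hx, hxD, ?_⟩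
  rw [← hZW]
  exact hZ₁n hx

/-- The set of maximal subgroups attached to conjugates of `A` in `D`. -/
def Pi0 (A M D : Subgroup G) : Set (Subgroup G) := {P | ∃ g : G, cj g A ≤ D ∧ P = cj g M}

omit [Finite G] in
theorem preserve (D L : Subgroup G) (y : G) (hy : y ∈ L)
    (hyn : y ∈ normalizer ((WW A M D L : Subgroup G) : Set G))
    (P : Subgroup G) (hP : P ∈ Pi0 A M D) : cj y P ∈ Pi0 A M D := by
  obtain ⟨g, hg, rfl⟩ := hP
  by_cases hgL : cj g M = L
  · refine ⟨g, hg, ?_⟩
    rw [hgL]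
    exact cj_eq_of_mem hy
  · have h1 : cj g A ≤ WW A M D L := le_WW hg hgL
    have h2 := cj_mono y h1
    rw [mem_normalizer_iff_cj.1 hyn] at h2
    exact ⟨y * g, by rw [cj_mul]; exact h2.trans (WW_le _ _ _ _), by rw [cj_mul]⟩

theorem preserve_D (D L : Subgroup G) (hDL : D ≤ L) (y : G) (hy : y ∈ D) :
    y ∈ normalizer ((WW A M D L : Subgroup G) : Set G) := by
  rw [mem_normalizer_iff_cj]
  have hle : cj y (WW A M D L) ≤ WW A M D L := by
    unfold WW
    rw [cj_sSup]
    refine sSup_le ?_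
    rintro _ ⟨U, ⟨g, rfl, h1, h2⟩, rfl⟩
    refine le_sSup ⟨y * g, ?_, ?_, ?_⟩
    · rw [cj_mul]
    · rw [cj_mul]
      have := cj_mono y h1
      rwa [cj_eq_of_mem hy] at this
    · rw [cj_mul]
      intro h5
      apply h2
      have h6 : cj y L = L := cj_eq_of_mem (hDL hy)
      rw [← h6] at h5
      exact cj_inj.1 h5
  refine Subgroup.eq_of_le_of_card_ge hle ?_
  rw [card_cj]

/-- The stabilizer of a set of subgroups under conjugation, as a subgroup. -/
def stab (Ps : Set (Subgroup G)) : Subgroup G where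
  carrier := {y | ∀ P, P ∈ Ps ↔ cj y P ∈ Ps}
  mul_mem' := by
    intro a b ha hb P
    rw [cj_mul]
    exact (hb P).trans (ha _)
  one_mem' := by
    intro P
    rw [cj_one]
  inv_mem' := by
    intro a ha P
    have := ha (cj a⁻¹ P)
    rw [cj_cj_inv] at this
    exact this.symm

theorem mem_stab_of_maps (Ps : Set (Subgroup G)) (y : G) (h : ∀ P ∈ Ps, cj y P ∈ Ps) : y ∈ stab Ps := by
  have hfin : Ps.Finite := Set.toFinite _
  have hinj : Set.InjOn (cj y) Ps := fun a _ b _ hab => cj_inj.1 hab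
  have hsurj : Set.SurjOn (cj y) Ps Ps := ((Set.Finite.injOn_iff_bijOn_of_mapsTo hfin h).1 hinj).surjOn
  intro P
  constructor
  · exact h P
  · intro hP
    obtain ⟨Q, hQ, hQe⟩ := hsurj hP
    rwa [← cj_inj.1 hQe]

/-- The main step. -/
theorem unique_coatom (hA : A ≠ ⊤) (hcl : Gen A ⊤) (hY : Y A ≠ ⊤) (ih : IH A) :
    ∃! M' : Subgroup G, IsCoatom M' ∧ A ≤ M' := by
  have hAY : A ≤ Y A := Fam.le_Y ⟨le_rfl, hA, Gen.self A⟩
  have hNY : normalizer (Y A : Set G) ≠ ⊤ := by
    intro hc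
    apply hY
    refine hcl _ hAY le_top ?_
    rw [hc]
  obtain h | ⟨M, hM, hNM⟩ := eq_top_or_exists_le_coatom (normalizer (Y A : Set G))
  · exact absurd h hNY
  have hYM : Y A ≤ M := Subgroup.le_normalizer.trans hNM
  have hAM : A ≤ M := hAY.trans hYM
  have hNA : normalizer (A : Set G) ≤ M := by
    intro g hg
    apply hNM
    rw [mem_normalizer_iff_cj, ← Y_cj, mem_normalizer_iff_cj.1 hg]
  refine ⟨M, ⟨hM, hAM⟩, ?_⟩
  rintro K₀ ⟨hK₀, hAK₀⟩
  by_contra hne₀
  -- choose `K` with `K ∩ M` maximal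
  obtain ⟨K, ⟨hK, hAK, hKM⟩, hmax⟩ := Set.exists_max_image
    {K : Subgroup G | IsCoatom K ∧ A ≤ K ∧ K ≠ M} (fun K => Nat.card (K ⊓ M : Subgroup G))
    (Set.toFinite _) ⟨K₀, hK₀, hAK₀, hne₀⟩
  set D := K ⊓ M with hD
  have hDK : D ≤ K := inf_le_left
  have hDM : D ≤ M := inf_le_right
  have hAD : A ≤ D := le_inf hAK hAM
  have hDneK : D ≠ K := by
    intro h
    have h1 : K ≤ M := h ▸ hDM
    rcases h1.lt_or_eq with h2 | h2
    · exact hM.1 (hK.2 _ h2)
    · exact hKM h2
  have hDneM : D ≠ M := by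
    intro h
    have h1 : M ≤ K := h ▸ hDK
    rcases h1.lt_or_eq with h2 | h2
    · exact hK.1 (hM.2 _ h2)
    · exact hKM h2.symm
  obtain ⟨n, hnK, hnD, hnW⟩ := growth hcl hYM hM ih D K hK hDK hDneK
  obtain ⟨x, hxM, hxD, hxW⟩ := growth hcl hYM hM ih D M hM hDM hDneM
  have hnM : n ∉ M := fun h => hnD ⟨hnK, h⟩
  let Ps := Pi0 A M D
  have hstab : stab Ps ≠ ⊤ := by
    intro hc
    have hMPs : M ∈ Ps := ⟨1, by rw [cj_one]; exact hAD, by rw [cj_one]⟩
    let N : Subgroup G := ⨅ y : G, cj y M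
    have hAN : A ≤ N := by
      refine le_iInf ?_
      intro y
      have h1 : y ∈ stab Ps := hc ▸ Subgroup.mem_top y
      obtain ⟨h, hh, he⟩ := (h1 M).1 hMPs
      rw [he]
      have := le_of_mem_Phi hcl hAM hYM hNA hM ih D K M hK hM hKM hDK hDM 1 h
        (by rw [cj_one]; exact hAD) hh
      rwa [cj_one] at this
    have hNtop : N = ⊤ := by
      refine hcl N hAN le_top ?_
      intro g _
      rw [mem_normalizer_iff_cj]
      refine Subgroup.eq_of_le_of_card_ge ?_ (by rw [card_cj])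
      intro z hz
      rw [mem_cj] at hz
      refine Subgroup.mem_iInf.2 ?_
      intro y
      have h1 := Subgroup.mem_iInf.1 hz (g⁻¹ * y)
      rw [mem_cj] at h1 ⊢
      have h2 : (g⁻¹ * y)⁻¹ * (g⁻¹ * z * g) * (g⁻¹ * y) = y⁻¹ * z * y := by group
      rwa [h2] at h1
    have : (⊤ : Subgroup G) ≤ M := by
      rw [← hNtop]
      have := iInf_le (fun y : G => cj y M) 1
      rwa [cj_one] at this
    exact hM.1 (top_le_iff.1 this)
  have hDs : D ≤ stab Ps := by
    intro y hy
    refine mem_stab_of_maps _ _ ?_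
    exact preserve D M y (hDM hy) (preserve_D D M hDM y hy)
  have hns : n ∈ stab Ps := mem_stab_of_maps _ _ (preserve D K n hnK hnW)
  have hxs : x ∈ stab Ps := mem_stab_of_maps _ _ (preserve D M x hxM hxW)
  obtain h | ⟨K', hK', hsK'⟩ := eq_top_or_exists_le_coatom (stab Ps)
  · exact hstab h
  have hK'M : K' ≠ M := by
    rintro rfl
    exact hnM (hsK' hns)
  have h1 : D ≤ K' ⊓ M := le_inf (hDs.trans hsK') hDM
  have h2 : D ≠ K' ⊓ M := by
    intro h
    apply hxD
    rw [h]
    exact ⟨hsK' hxs, hxM⟩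
  have h3 := card_lt_of_lt h1 h2
  have h4 := hmax K' ⟨hK', hAD.trans (hDs.trans hsK'), hK'M⟩
  exact absurd h4 (not_le.2 h3)

/-- The generalized zipper lemma. -/
theorem main (A : Subgroup G) (hA : A ≠ ⊤) (hcl : Gen A ⊤) :
    Y A = ⊤ ∨ ∃! M' : Subgroup G, IsCoatom M' ∧ A ≤ M' := by
  induction h : Nat.card G - Nat.card A using Nat.strong_induction_on generalizing A with
  | _ n ih =>
    by_cases hY : Y A = ⊤
    · exact Or.inl hY
    right
    refine unique_coatom hA hcl hY ?_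
    intro B hB hBne hBcl
    have hle : Nat.card B ≤ Nat.card G := Subgroup.card_le_card_group B
    have hle2 : Nat.card A ≤ Nat.card G := Subgroup.card_le_card_group A
    have : Nat.card G - Nat.card B < n := by omega
    exact ih _ this B hBne hBcl rfl

end main

/-- Translation of `Gen` into normal closures in the subgroup. -/
theorem gen_iff {G : Type u} [Group G] (A H : Subgroup G) (hAH : A ≤ H) :
    Subgroup.normalClosure ((A.subgroupOf H : Subgroup H) : Set H) = ⊤ ↔ Gen A H := by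
  constructor
  · intro h N h1 h2 h3
    have h4 : (N.subgroupOf H).Normal := by
      refine ⟨fun n hn g => ?_⟩
      have h6 := (Subgroup.mem_normalizer_iff.1 (h3 g.2)) (n : G)
      exact h6.1 hn
    have h5 : Subgroup.normalClosure ((A.subgroupOf H : Subgroup H) : Set H) ≤ N.subgroupOf H := by
      refine Subgroup.normalClosure_le_normal ?_
      intro x hx
      exact h1 hx
    rw [h] at h5
    refine le_antisymm h2 ?_
    intro x hx
    exact h5 (Subgroup.mem_top (⟨x, hx⟩ : H))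
  · intro h
    set N' := Subgroup.normalClosure ((A.subgroupOf H : Subgroup H) : Set H) with hN'
    have h1 : N'.map H.subtype = H := by
      refine h _ ?_ ?_ ?_
      · intro a ha
        refine ⟨⟨a, hAH ha⟩, Subgroup.subset_normalClosure ?_, rfl⟩
        exact ha
      · rintro _ ⟨x, _, rfl⟩
        exact x.2
      · intro x hx
        rw [Subgroup.mem_normalizer_iff]
        intro y
        constructor
        · rintro ⟨z, hz, rfl⟩
          exact ⟨⟨x, hx⟩ * z * ⟨x, hx⟩⁻¹, (inferInstance : N'.Normal).conj_mem z hz _, rfl⟩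
        · rintro ⟨z, hz, hzy⟩
          refine ⟨⟨x, hx⟩⁻¹ * z * ⟨x, hx⟩, ?_, ?_⟩
          · have := (inferInstance : N'.Normal).conj_mem z hz (⟨x, hx⟩⁻¹ : H)
            simpa using this
          · simp only [Subgroup.coe_subtype, Subgroup.coe_mul, Subgroup.coe_inv] at hzy ⊢
            rw [hzy]
            group
    rw [eq_top_iff]
    rintro ⟨x, hx⟩ _
    rw [← h1] at hx
    obtain ⟨y, hy, hxy⟩ := hx
    have : y = ⟨x, by rw [← h1]; exact ⟨y, hy, hxy⟩⟩ := Subtype.ext hxy
    rw [← this] 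
    exact hy

end Cfsg.Agent.Lib.GenZipper
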