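import Mathlib
import Cfsg.Agent.Lib.GenZipper

/-!
If the normal closure of `a` is the whole finite group `X`, then for every `k` the values of the
`k`-th iterate of `b ↦ b a b⁻¹` generate `X`.  (A generalization of Baer's Engel theorem.)
-/

set_option autoImplicit false

namespace Cfsg.Agent.Lib.EngelIter

open Subgroup Cfsg.Agent.Lib.GenZipper

universe u

/-- The map `b ↦ b a b⁻¹`. -/
def T {X : Type u} [Group X] (a b : X) : X := b * a * b⁻¹

theorem T_self {X : Type u} [Group X] (a : X) : T a a = a := by simp [T]

theorem T_iterate_self {X : Type u} [Group X] (a : X) (k : ℕ) : (T a)^[k] a = a := by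
  induction k with
  | zero => rfl
  | succ k ih => rw [Function.iterate_succ_apply, T_self, ih]

theorem T_one {X : Type u} [Group X] (a : X) : T a 1 = a := by simp [T]

theorem a_mem_range {X : Type u} [Group X] (a : X) (k : ℕ) : a ∈ Set.range ((T a)^[k + 1]) :=
  ⟨1, by rw [Function.iterate_succ_apply, T_one, T_iterate_self]⟩

theorem coe_T_iterate {X : Type u} [Group X] (H : Subgroup X) (a b : H) (k : ℕ) :
    (((T a)^[k] b : H) : X) = (T (a : X))^[k] (b : X) := by
  induction k generalizing b with
  | zero => rfl
  | succ k ih =>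
    rw [Function.iterate_succ_apply, Function.iterate_succ_apply, ih]
    rfl

theorem iter_closure (m : ℕ) : ∀ (X : Type u) [Group X] [Finite X], Nat.card X = m → ∀ a : X,
    Gen (zpowers a) ⊤ → ∀ k : ℕ, closure (Set.range ((T a)^[k + 1])) = ⊤ := by
  induction m using Nat.strong_induction_on with
  | _ m IH =>
    intro X _ _ hX a hcl k
    by_contra hL
    set L := closure (Set.range ((T a)^[k + 1])) with hLdef
    have haL : a ∈ L := subset_closure (a_mem_range a k)
    have hAL : zpowers a ≤ L := (zpowers_le).2 haL
    have hA' : zpowers a ≠ ⊤ := fun h => hL (top_le_iff.1 (h ▸ hAL))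
    have hYL : Y (zpowers a) ≤ L := by
      refine sSup_le ?_
      rintro H ⟨h1, h2, h3⟩
      have haH : a ∈ H := h1 (mem_zpowers a)
      have hcard : Nat.card H < m := by
        rw [← hX]
        exact Cfsg.Agent.Lib.Subnormal.card_lt_of_ne_top h2
      let a' : H := ⟨a, haH⟩
      have hcl' : Gen (zpowers a') ⊤ := by
        intro N' n1 _ n3
        have hn : N'.Normal := normalizer_eq_top_iff.1 (top_le_iff.1 n3)
        have h4 : N'.map H.subtype = H := by
          refine h3 _ ?_ ?_ ?_
          · rw [zpowers_le]
            exact ⟨a', n1 (mem_zpowers a'), rfl⟩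
          · rintro _ ⟨x, _, rfl⟩
            exact x.2
          · intro x hx
            rw [mem_normalizer_iff]
            intro y
            constructor
            · rintro ⟨z, hz, rfl⟩
              exact ⟨⟨x, hx⟩ * z * ⟨x, hx⟩⁻¹, hn.conj_mem z hz _, rfl⟩
            · rintro ⟨z, hz, hzy⟩
              refine ⟨⟨x, hx⟩⁻¹ * z * ⟨x, hx⟩, ?_, ?_⟩
              · have := hn.conj_mem z hz (⟨x, hx⟩⁻¹ : H)
                simpa using this
              · simp only [Subgroup.coe_subtype, Subgroup.coe_mul, Subgroup.coe_inv] at hzy ⊢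
                rw [hzy]
                group
        rw [eq_top_iff]
        rintro ⟨x, hx⟩ _
        rw [← h4] at hx
        obtain ⟨y, hy, hxy⟩ := hx
        have : y = ⟨x, by rw [← h4]; exact ⟨y, hy, hxy⟩⟩ := Subtype.ext hxy
        rw [← this]
        exact hy
      have h5 := IH _ hcard H rfl a' hcl' k
      intro x hx
      have h6 : (⟨x, hx⟩ : H) ∈ closure (Set.range ((T a')^[k + 1])) := by
        rw [h5]; exact mem_top _
      have h7 : (closure (Set.range ((T a')^[k + 1]))).map H.subtype ≤ L := by
        rw [map_le_iff_le_comap, closure_le]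
        rintro _ ⟨b, rfl⟩
        show (((T a')^[k + 1] b : H) : X) ∈ L
        rw [coe_T_iterate]
        exact subset_closure ⟨(b : X), rfl⟩
      exact h7 ⟨_, h6, rfl⟩
    obtain hY | ⟨M, ⟨hM, hAM⟩, huniq⟩ := main (zpowers a) hA' hcl
    · rw [hY] at hYL
      exact hL (top_le_iff.1 hYL)
    have haM : a ∈ M := hAM (mem_zpowers a)
    have hLM : L ≤ M := by
      obtain h | ⟨K, hK, hLK⟩ := eq_top_or_exists_le_coatom L
      · exact absurd h hL
      · rw [← huniq K ⟨hK, hAL.trans hLK⟩]
        exact hLK
    -- the key property of `T`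
    have hkey : ∀ u : X, T a u ∈ M → u ∈ M := by
      intro u hu
      have h1 : a ∈ cj u⁻¹ M := by
        rw [mem_cj]
        simpa [T] using hu
      have h2 : cj u⁻¹ M = M := huniq _ ⟨isCoatom_cj _ hM, (zpowers_le).2 h1⟩
      have h3 : u⁻¹ ∈ normalizer (M : Set X) := mem_normalizer_iff_cj.2 h2
      have h4 : normalizer (M : Set X) = M := by
        by_contra hne
        have h5 : M < normalizer (M : Set X) := lt_of_le_of_ne le_normalizer (Ne.symm hne)
        have h6 := hM.2 _ h5
        exact hM.1 (hcl M hAM le_top (by rw [h6]))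
      rw [h4] at h3
      simpa using M.inv_mem h3
    have hiter : ∀ (i : ℕ) (u : X), (T a)^[i] u ∈ M → u ∈ M := by
      intro i
      induction i with
      | zero => exact fun u h => h
      | succ i ih =>
        intro u h
        rw [Function.iterate_succ_apply] at h
        exact hkey u (ih _ h)
    apply hM.1
    rw [eq_top_iff]
    intro u _
    exact hiter (k + 1) u (hLM (subset_closure ⟨u, rfl⟩))

end Cfsg.Agent.Lib.EngelIter
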