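import Mathlib

set_option autoImplicit false
set_option linter.unusedSectionVars false
set_option linter.unusedSimpArgs false
set_option linter.unusedVariables false

namespace Cfsg.Agent.Lib.ExtA

open Module

section basic

variable {F L V : Type*} [Field F] [Field L] [Algebra F L]
  [AddCommGroup V] [Module L V] [Module F V] [IsScalarTower F L V]

/-- The root map `y ↦ y + f (ψ y) • b`. -/
def rtL (b : V) (ψ : V →ₗ[L] L) (f : L →ₗ[F] L) : V →ₗ[F] V where
  toFun y := y + f (ψ y) • b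
  map_add' x y := by simp [add_add_add_comm, add_smul]
  map_smul' c y := by
    simp only [RingHom.id_apply, smul_add]
    rw [LinearMap.map_smul_of_tower ψ, map_smul, smul_assoc]

@[simp] theorem rtL_apply (b : V) (ψ : V →ₗ[L] L) (f : L →ₗ[F] L) (y : V) :
    rtL b ψ f y = y + f (ψ y) • b := rfl

/-- The root element as a linear equivalence. -/
def rt {b : V} {ψ : V →ₗ[L] L} (h : ψ b = 0) (f : L →ₗ[F] L) : V ≃ₗ[F] V :=
  LinearEquiv.ofLinearMap (rtL b ψ f) (rtL b ψ (-f))
    (by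
      ext y
      simp [h])
    (by
      ext y
      simp [h])

@[simp] theorem rt_apply {b : V} {ψ : V →ₗ[L] L} (h : ψ b = 0) (f : L →ₗ[F] L) (y : V) :
    rt h f y = y + f (ψ y) • b := rfl

theorem rt_mul {b : V} {ψ : V →ₗ[L] L} (h : ψ b = 0) (f f' : L →ₗ[F] L) :
    rt h f * rt h f' = rt h (f + f') := by
  ext y
  simp [LinearEquiv.mul_apply, h, add_smul, add_comm]
  abel

theorem rt_zero {b : V} {ψ : V →ₗ[L] L} (h : ψ b = 0) : rt h (0 : L →ₗ[F] L) = 1 := by
  ext y
  simp

theorem rt_inv {b : V} {ψ : V →ₗ[L] L} (h : ψ b = 0) (f : L →ₗ[F] L) :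
    (rt h f)⁻¹ = rt h (-f) := by
  rw [inv_eq_iff_mul_eq_one, rt_mul]
  simp [rt_zero]

theorem rt_inv_apply {b : V} {ψ : V →ₗ[L] L} (h : ψ b = 0) (f : L →ₗ[F] L) (y : V) :
    (rt h f)⁻¹ y = y - f (ψ y) • b := by
  rw [rt_inv]
  simp [sub_eq_add_neg]

/-- Semilinear maps. -/
def Semi (g : V ≃ₗ[F] V) : Prop := ∀ a : L, ∃ a' : L, ∀ v, g (a • v) = a' • g v

/-- The restriction of scalars of an `L`-linear equivalence. -/
abbrev toF (h : V ≃ₗ[L] V) : V ≃ₗ[F] V := h.restrictScalars F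

theorem toF_apply (h : V ≃ₗ[L] V) (y : V) : (toF (F := F) h) y = h y := rfl

theorem toF_mul (h h' : V ≃ₗ[L] V) : toF (F := F) (h * h') = toF h * toF h' := rfl

theorem toF_inv (h : V ≃ₗ[L] V) : toF (F := F) h⁻¹ = (toF h)⁻¹ := rfl

theorem semi_toF (h : V ≃ₗ[L] V) : Semi (L := L) (toF (F := F) h) := fun a => ⟨a, fun v => by
  simp⟩

/-- The overgroup hypothesis. -/
def HH (L : Type*) [Field L] [Algebra F L] [Module L V] [IsScalarTower F L V]
    (X : Subgroup (V ≃ₗ[F] V)) : Prop :=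
  ∀ g : V ≃ₗ[F] V, Semi (L := L) g → LinearEquiv.det g = 1 → g ∈ X

/-- multiplication as a linear map -/
abbrev m (F : Type*) {L : Type*} [Field F] [Field L] [Algebra F L] (κ : L) : L →ₗ[F] L :=
  LinearMap.mulLeft F κ

@[simp] theorem m_apply (κ a : L) : m F κ a = κ * a := rfl

end basic

section det

variable {F L V : Type*} [Field F] [Field L] [Algebra F L]
  [AddCommGroup V] [Module L V] [Module F V] [IsScalarTower F L V] [Module.Finite L V]

theorem det_toF (h : V ≃ₗ[L] V) :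
    ((LinearEquiv.det (toF (F := F) h) : Fˣ) : F) = Algebra.norm F ((LinearEquiv.det h : Lˣ) : L) := by
  rw [LinearEquiv.coe_det, LinearEquiv.coe_det]
  exact LinearMap.det_restrictScalars

theorem toF_mem {X : Subgroup (V ≃ₗ[F] V)} (hX : HH L X) (h : V ≃ₗ[L] V)
    (hN : Algebra.norm F ((LinearEquiv.det h : Lˣ) : L) = 1) : toF (F := F) h ∈ X := by
  apply hX _ (semi_toF h)
  ext
  rw [det_toF, hN]
  rfl

/-- an `L`-transvection as an element of `X`. -/
theorem rt_m_eq {b : V} {ψ : V →ₗ[L] L} (h : ψ b = 0) (κ : L) :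
    ∃ g : V ≃ₗ[L] V, (LinearEquiv.det g : Lˣ) = 1 ∧ toF (F := F) g = rt h (m F κ) := by
  have h' : (κ • ψ : Module.Dual L V) b = 0 := by simp [h]
  refine ⟨LinearEquiv.transvection h', ?_, ?_⟩
  · exact LinearEquiv.transvection.det_eq_one h'
  · ext y
    simp [LinearMap.transvection.apply]

theorem rt_m_mem {X : Subgroup (V ≃ₗ[F] V)} (hX : HH L X) {b : V} {ψ : V →ₗ[L] L} (h : ψ b = 0)
    (κ : L) : rt h (m F κ) ∈ X := by
  obtain ⟨g, hg, hg'⟩ := rt_m_eq (F := F) h κ
  rw [← hg']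
  apply toF_mem hX
  rw [hg]
  simp

end det

section dual

variable {L V : Type*} [Field L] [AddCommGroup V] [Module L V]

theorem exists_sep {W : Submodule L V} {y : V} (hy : y ∉ W) :
    ∃ ψ : V →ₗ[L] L, ψ y = 1 ∧ ∀ w ∈ W, ψ w = 0 := by
  obtain ⟨f, hf, hW⟩ := Submodule.exists_le_ker_of_notMem hy
  refine ⟨(f y)⁻¹ • f, by simp [hf], fun w hw => ?_⟩
  have h := hW hw
  simp only [LinearMap.mem_ker] at h
  simp [h]

theorem exists_sep_pair {b z : V} (hz : z ∉ Submodule.span L {b}) :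
    ∃ ψ : V →ₗ[L] L, ψ b = 0 ∧ ψ z = 1 := by
  obtain ⟨ψ, h1, h2⟩ := exists_sep hz
  exact ⟨ψ, h2 b (Submodule.mem_span_singleton_self b), h1⟩

theorem not_mem_span_symm {b z : V} (hb : b ≠ 0) (hz : z ∉ Submodule.span L {b}) :
    b ∉ Submodule.span L {z} := by
  intro h
  obtain ⟨c, hc⟩ := Submodule.mem_span_singleton.mp h
  have hc0 : c ≠ 0 := by
    rintro rfl
    exact hb (by simpa using hc.symm)
  apply hz
  refine Submodule.mem_span_singleton.mpr ⟨c⁻¹, ?_⟩
  rw [← hc, smul_smul, inv_mul_cancel₀ hc0, one_smul]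

theorem exists_not_mem_span [Module.Finite L V] (hm : 2 ≤ finrank L V) (b : V) :
    ∃ z, z ∉ Submodule.span L {b} := by
  by_contra h
  push Not at h
  have : Submodule.span L {b} = ⊤ := by
    ext y
    simp [h y]
  have h1 : finrank L (Submodule.span L {b}) ≤ 1 := by
    have := finrank_span_le_card (R := L) ({b} : Set V)
    simpa using this
  rw [this, finrank_top] at h1
  omega

theorem exists_not_mem_span_pair [Module.Finite L V] (hm : 3 ≤ finrank L V) (b z : V) :
    ∃ y, y ∉ Submodule.span L {b, z} := by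
  by_contra h
  push Not at h
  have : Submodule.span L {b, z} = ⊤ := by
    ext y
    simp [h y]
  have h1 : finrank L (Submodule.span L {b, z}) ≤ 2 := by
    classical
    have := finrank_span_finset_le_card (R := L) (M := V) (({b, z} : Finset V))
    have h2 : (({b, z} : Finset V) : Set V) = {b, z} := by simp
    rw [h2] at this
    have h3 := Finset.card_le_two (a := b) (b := z)
    exact this.trans h3
  rw [this, finrank_top] at h1
  omega

end dual

section trans

variable {F L V : Type*} [Field F] [Field L] [Algebra F L]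
  [AddCommGroup V] [Module L V] [Module F V] [IsScalarTower F L V]

/-- transitivity on nonzero vectors, independent case -/
theorem exists_trans_indep {w b : V} (hw : w ≠ 0) (hb : b ∉ Submodule.span L {w}) :
    ∃ h : V ≃ₗ[L] V, LinearEquiv.det h = 1 ∧ h w = b := by
  have hb0 : b ≠ 0 := by
    rintro rfl
    exact hb (Submodule.zero_mem _)
  obtain ⟨ψ2, h21, h22⟩ := exists_sep_pair hb
  have hw' : w ∉ Submodule.span L {b} := not_mem_span_symm hw hb
  obtain ⟨ψ1, h11, h12⟩ := exists_sep_pair hw'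
  let ψ : Module.Dual L V := ψ1 + ψ2
  have hψ : ψ (b - w) = 0 := by
    simp [ψ, h11, h12, h21, h22]
  refine ⟨LinearEquiv.transvection hψ, LinearEquiv.transvection.det_eq_one hψ, ?_⟩
  rw [LinearEquiv.transvection.apply]
  simp [ψ, h12, h21]

theorem exists_trans [Module.Finite L V] (hm : 2 ≤ finrank L V) {w b : V} (hw : w ≠ 0) (hb : b ≠ 0) :
    ∃ h : V ≃ₗ[L] V, LinearEquiv.det h = 1 ∧ h w = b := by
  by_cases hbw : b ∈ Submodule.span L {w}
  · obtain ⟨w', hw'⟩ := exists_not_mem_span hm w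
    have hw'0 : w' ≠ 0 := by
      rintro rfl
      exact hw' (Submodule.zero_mem _)
    obtain ⟨h1, h1d, h1a⟩ := exists_trans_indep hw hw'
    have hb' : b ∉ Submodule.span L {w'} := by
      intro h
      obtain ⟨c, hc⟩ := Submodule.mem_span_singleton.mp h
      obtain ⟨c', hc'⟩ := Submodule.mem_span_singleton.mp hbw
      have hc0 : c ≠ 0 := by
        rintro rfl
        exact hb (by simpa using hc.symm)
      apply hw'
      refine Submodule.mem_span_singleton.mpr ⟨c⁻¹ * c', ?_⟩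
      rw [mul_smul, hc', ← hc, smul_smul, inv_mul_cancel₀ hc0, one_smul]
    obtain ⟨h2, h2d, h2a⟩ := exists_trans_indep hw'0 hb'
    refine ⟨h2 * h1, ?_, ?_⟩
    · rw [map_mul, h1d, h2d, mul_one]
    · rw [LinearEquiv.mul_apply, h1a, h2a]
  · exact exists_trans_indep hw hbw

/-- Conjugating a root element by an `L`-linear map. -/
theorem conj_rt (h : V ≃ₗ[L] V) {b : V} {ψ : V →ₗ[L] L} (hb : ψ b = 0)
    (hb' : (ψ ∘ₗ (h.symm : V →ₗ[L] V)) (h b) = 0) (f : L →ₗ[F] L) :
    toF (F := F) h * rt hb f * (toF (F := F) h)⁻¹ = rt hb' f := by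
  ext y
  have h1 : ((toF (F := F) h)⁻¹) y = h.symm y := rfl
  simp only [LinearEquiv.mul_apply, h1, rt_apply]
  simp [toF_apply]

theorem hb'_of (h : V ≃ₗ[L] V) {b : V} {ψ : V →ₗ[L] L} (hb : ψ b = 0) :
    (ψ ∘ₗ (h.symm : V →ₗ[L] V)) (h b) = 0 := by
  simpa using hb

/-- `rt` for a scaled functional. -/
theorem rt_smul_functional {b : V} {ψ : V →ₗ[L] L} (hb : ψ b = 0) (c : L)
    (hb' : (c • ψ) b = 0) (f : L →ₗ[F] L) : rt hb' f = rt hb (f ∘ₗ m F c) := by
  ext y
  simp

/-- the rank one map. -/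
abbrev ro (p : L) (π : L →ₗ[F] F) : L →ₗ[F] L := π.smulRight p

end trans

end Cfsg.Agent.Lib.ExtA
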