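import Mathlib
import Cfsg.Agent.Lib.ExtA

set_option autoImplicit false
set_option linter.unusedSectionVars false
set_option linter.unusedSimpArgs false
set_option linter.unusedVariables false

namespace Cfsg.Agent.Lib.ExtB

open Module Cfsg.Agent.Lib.ExtA

section eigen

variable {L V : Type*} [Field L] [AddCommGroup V] [Module L V]

theorem indep_of {b w : V} (hb : b ≠ 0) (hw : w ∉ Submodule.span L {b}) {α β : L}
    (h : α • b + β • w = 0) : α = 0 ∧ β = 0 := by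
  have hβ : β = 0 := by
    by_contra hβ
    apply hw
    refine Submodule.mem_span_singleton.mpr ⟨-(β⁻¹ * α), ?_⟩
    have h1 : β • w = -(α • b) := by
      rw [eq_neg_iff_add_eq_zero, add_comm]; exact h
    calc (-(β⁻¹ * α)) • b = β⁻¹ • (-(α • b)) := by
          rw [neg_smul, smul_neg, mul_smul]
      _ = w := by rw [← h1, smul_smul, inv_mul_cancel₀ hβ, one_smul]
  subst hβ
  refine ⟨?_, rfl⟩
  simp only [zero_smul, add_zero, smul_eq_zero] at h
  exact h.resolve_right hb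

theorem eigen_step (y : V →+ V) (hy : ∀ w, ∃ c : L, y w = c • w) {u w : V} {c : L} (hu : u ≠ 0)
    (hw : w ∉ Submodule.span L {u}) (huc : y u = c • u) : y w = c • w := by
  obtain ⟨c1, hc1⟩ := hy w
  obtain ⟨c2, hc2⟩ := hy (u + w)
  rw [map_add, huc, hc1, smul_add] at hc2
  have h : (c2 - c) • u + (c2 - c1) • w = 0 := by
    rw [sub_smul, sub_smul]
    have : c • u + c1 • w = c2 • u + c2 • w := hc2
    have h2 : (c2 • u - c • u) + (c2 • w - c1 • w) = (c2 • u + c2 • w) - (c • u + c1 • w) := by abel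
    rw [h2, this, sub_self]
  obtain ⟨h1, h2⟩ := indep_of hu hw h
  have : c = c1 := by
    have h3 := sub_eq_zero.mp h1
    have h4 := sub_eq_zero.mp h2
    rw [← h3, h4]
  rw [hc1, this]

theorem scalar_of_eigen [Module.Finite L V] (hm : 2 ≤ finrank L V) (y : V →+ V)
    (hy : ∀ w, ∃ c : L, y w = c • w) : ∃ c : L, ∀ w, y w = c • w := by
  have : Nontrivial V := Module.nontrivial_of_finrank_pos (R := L) (by omega)
  obtain ⟨b, hb⟩ := exists_ne (0 : V)
  obtain ⟨c, hc⟩ := hy b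
  refine ⟨c, fun w => ?_⟩
  by_cases hw : w ∈ Submodule.span L {b}
  · by_cases hw0 : w = 0
    · simp [hw0]
    obtain ⟨w', hw'⟩ := exists_not_mem_span hm b
    have hw'0 : w' ≠ 0 := by
      rintro rfl
      exact hw' (Submodule.zero_mem _)
    have h1 := eigen_step y hy hb hw' hc
    refine eigen_step y hy hw'0 ?_ h1
    intro h
    obtain ⟨d, hd⟩ := Submodule.mem_span_singleton.mp h
    have hd0 : d ≠ 0 := by
      rintro rfl
      exact hw0 (by simpa using hd.symm)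
    apply hw'
    have : w' = d⁻¹ • w := by rw [← hd, smul_smul, inv_mul_cancel₀ hd0, one_smul]
    rw [this]
    exact Submodule.smul_mem _ _ hw
  · exact eigen_step y hy hb hw hc

end eigen

section main

variable {F L V : Type*} [Field F] [Field L] [Algebra F L]
  [AddCommGroup V] [Module L V] [Module F V] [IsScalarTower F L V]

theorem inv_app (g : V ≃ₗ[F] V) (y : V) : g (g⁻¹ y) = y := g.apply_symm_apply y
theorem app_inv (g : V ≃ₗ[F] V) (y : V) : g⁻¹ (g y) = y := g.symm_apply_apply y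

theorem semi_of_line [Module.Finite L V] (hm : 2 ≤ finrank L V) (x : V ≃ₗ[F] V)
    (hx : ∀ (v : V) (a : L), ∃ c : L, x (a • v) = c • x v) : Semi (L := L) x := by
  intro a
  let y : V →+ V :=
    { toFun := fun w => x (a • x⁻¹ w)
      map_zero' := by simp
      map_add' := fun u w => by simp [smul_add] }
  have hy : ∀ w, ∃ c : L, y w = c • w := by
    intro w
    obtain ⟨c, hc⟩ := hx (x⁻¹ w) a
    refine ⟨c, ?_⟩
    change x (a • x⁻¹ w) = c • w
    rw [hc, inv_app]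
  obtain ⟨c, hc⟩ := scalar_of_eigen hm y hy
  refine ⟨c, fun v => ?_⟩
  have := hc (x v)
  change x (a • x⁻¹ (x v)) = c • x v at this
  rwa [app_inv] at this

/-- The `L`-line through `b` as an `F`-subspace. -/
def lin (F L : Type*) {V : Type*} [Field F] [Field L] [Algebra F L]
    [AddCommGroup V] [Module L V] [Module F V] [IsScalarTower F L V] (b : V) : Submodule F V :=
  (Submodule.span L {b}).restrictScalars F

theorem mem_lin {b y : V} : y ∈ lin F L b ↔ ∃ a : L, a • b = y := by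
  simp [lin, Submodule.mem_span_singleton]

theorem smul_mem_lin (b : V) (a : L) : a • b ∈ lin F L b := mem_lin.mpr ⟨a, rfl⟩

/-- The image of the line. -/
def Wg (F L : Type*) {V : Type*} [Field F] [Field L] [Algebra F L]
    [AddCommGroup V] [Module L V] [Module F V] [IsScalarTower F L V] (b : V) (g : V ≃ₗ[F] V) :
    Submodule F V :=
  (lin F L b).map (g : V →ₗ[F] V)

theorem mem_Wg {b y : V} {g : V ≃ₗ[F] V} : y ∈ Wg F L b g ↔ ∃ a : L, g (a • b) = y := by
  simp only [Wg, Submodule.mem_map, mem_lin]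
  constructor
  · rintro ⟨z, ⟨a, rfl⟩, rfl⟩
    exact ⟨a, rfl⟩
  · rintro ⟨a, rfl⟩
    exact ⟨a • b, ⟨a, rfl⟩, rfl⟩

theorem smul_mem_Wg (b : V) (g : V ≃ₗ[F] V) (a : L) : g (a • b) ∈ Wg F L b g := mem_Wg.mpr ⟨a, rfl⟩

/-- The intersection size -/
noncomputable def DD (F L : Type*) {V : Type*} [Field F] [Field L] [Algebra F L]
    [AddCommGroup V] [Module L V] [Module F V] [IsScalarTower F L V] (b : V) (g : V ≃ₗ[F] V) : ℕ :=
  finrank F ↥(lin F L b ⊓ Wg F L b g)

/-- Maximality. -/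
structure MaxG (L : Type*) [Field L] [Algebra F L] [Module L V] [IsScalarTower F L V]
    (X : Subgroup (V ≃ₗ[F] V)) (b : V) (g : V ≃ₗ[F] V) : Prop where
  mem : g ∈ X
  ne : Wg F L b g ≠ lin F L b
  max : ∀ g' ∈ X, Wg F L b g' ≠ lin F L b → DD F L b g' ≤ DD F L b g
  pos : ∃ κ : L, κ ≠ 0 ∧ κ • b ∈ Wg F L b g

theorem exists_max_of_bdd {α : Type*} (P : α → Prop) (f : α → ℕ) (B : ℕ) (h0 : ∃ a, P a)
    (hB : ∀ a, P a → f a ≤ B) : ∃ a, P a ∧ ∀ a', P a' → f a' ≤ f a := by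
  let s : Set ℕ := {n | ∃ a, P a ∧ f a = n}
  have hs : s.Nonempty := by
    obtain ⟨a, ha⟩ := h0
    exact ⟨f a, a, ha, rfl⟩
  have hbd : BddAbove s := ⟨B, by
    rintro n ⟨a, ha, rfl⟩
    exact hB a ha⟩
  obtain ⟨a, ha, hfa⟩ := Nat.sSup_mem hs hbd
  refine ⟨a, ha, fun a' ha' => ?_⟩
  rw [hfa]
  exact le_csSup hbd ⟨a', ha', rfl⟩

variable [Module.Finite L V]

theorem exists_start {X : Subgroup (V ≃ₗ[F] V)} (hX : HH L X) (hm : 2 ≤ finrank L V) {x : V ≃ₗ[F] V}
    (hxX : x ∈ X) (hS : ¬ Semi (L := L) x) {b : V} (hb : b ≠ 0) :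
    ∃ g ∈ X, Wg F L b g ≠ lin F L b ∧ b ∈ Wg F L b g := by
  have h1 : ∃ (v : V) (a : L), ∀ c : L, x (a • v) ≠ c • x v := by
    by_contra h
    push Not at h
    exact hS (semi_of_line hm x h)
  obtain ⟨v, a, hva⟩ := h1
  have hv : v ≠ 0 := by
    rintro rfl
    exact hva 0 (by simp)
  have hw : x v ≠ 0 := by simpa using hv
  obtain ⟨h1, h1d, h1a⟩ := exists_trans (L := L) hm hw hb
  obtain ⟨h2, h2d, h2a⟩ := exists_trans (L := L) hm hb hv
  have hh1 : toF (F := F) h1 ∈ X := toF_mem hX h1 (by simp [h1d])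
  have hh2 : toF (F := F) h2 ∈ X := toF_mem hX h2 (by simp [h2d])
  refine ⟨toF h1 * x * toF h2, X.mul_mem (X.mul_mem hh1 hxX) hh2, ?_, ?_⟩
  · intro h
    have h3 : (toF (F := F) h1 * x * toF h2 : V ≃ₗ[F] V) (a • b) ∈ lin F L b := by
      rw [← h]
      exact smul_mem_Wg b _ a
    obtain ⟨c, hc⟩ := mem_lin.mp h3
    apply hva c
    apply h1.injective
    have h4 : (toF (F := F) h1 * x * toF h2 : V ≃ₗ[F] V) (a • b) = h1 (x (a • v)) := by
      simp only [LinearEquiv.mul_apply, toF_apply, map_smul, h2a]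
    rw [← h4, ← hc, map_smul, h1a]
  · refine mem_Wg.mpr ⟨1, ?_⟩
    simp only [one_smul, LinearEquiv.mul_apply, toF_apply, h2a, h1a]

variable [Module.Finite F V]

theorem exists_maxG {X : Subgroup (V ≃ₗ[F] V)} (hX : HH L X) (hm : 2 ≤ finrank L V) {x : V ≃ₗ[F] V}
    (hxX : x ∈ X) (hS : ¬ Semi (L := L) x) {b : V} (hb : b ≠ 0) :
    ∃ g, MaxG L X b g := by
  obtain ⟨g0, hg0, hne0, hb0⟩ := exists_start hX hm hxX hS hb
  obtain ⟨g, ⟨hg, hne⟩, hmax⟩ := exists_max_of_bdd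
    (fun g' : V ≃ₗ[F] V => g' ∈ X ∧ Wg F L b g' ≠ lin F L b) (DD F L b) (finrank F V)
    ⟨g0, hg0, hne0⟩ (fun a _ => Submodule.finrank_le _)
  refine ⟨g, hg, hne, fun g' h1 h2 => hmax g' ⟨h1, h2⟩, ?_⟩
  have h1 : DD F L b g0 ≤ DD F L b g := hmax g0 ⟨hg0, hne0⟩
  have h2 : 0 < DD F L b g0 := by
    apply Module.finrank_pos_iff_exists_ne_zero.mpr
    refine ⟨⟨b, ?_, hb0⟩, ?_⟩
    · exact mem_lin.mpr ⟨1, one_smul _ _⟩
    · intro h
      exact hb (congrArg Subtype.val h)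
  have h3 : 0 < DD F L b g := by omega
  obtain ⟨⟨y, hy⟩, hy0⟩ := Module.finrank_pos_iff_exists_ne_zero.mp h3
  obtain ⟨κ, hκ⟩ := mem_lin.mp hy.1
  refine ⟨κ, ?_, ?_⟩
  · rintro rfl
    apply hy0
    ext
    simpa using hκ.symm
  · rw [hκ]
    exact hy.2

theorem Wg_mul (g h : V ≃ₗ[F] V) (b : V) : Wg F L b (h * g) = (Wg F L b g).map (h : V →ₗ[F] V) := by
  ext y
  simp only [mem_Wg, Submodule.mem_map, LinearEquiv.mul_apply]
  constructor
  · rintro ⟨a, rfl⟩
    exact ⟨g (a • b), ⟨a, rfl⟩, rfl⟩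
  · rintro ⟨_, ⟨a, rfl⟩, rfl⟩
    exact ⟨a, rfl⟩

theorem pair_bound {X : Subgroup (V ≃ₗ[F] V)} {b : V} {g g1 g2 : V ≃ₗ[F] V} (hg : MaxG L X b g)
    (h1 : g1 ∈ X) (h2 : g2 ∈ X) (hne : Wg F L b g1 ≠ Wg F L b g2) :
    finrank F ↥(Wg F L b g1 ⊓ Wg F L b g2) ≤ DD F L b g := by
  have h3 : Wg F L b (g1⁻¹ * g2) ≠ lin F L b := by
    intro h
    apply hne
    have h4 : g2 = g1 * (g1⁻¹ * g2) := by group
    rw [h4, Wg_mul, h]
    rfl
  have h4 := hg.max _ (X.mul_mem (X.inv_mem h1) h2) h3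
  refine le_trans (le_of_eq ?_) h4
  unfold DD
  have h5 : (Wg F L b g1 ⊓ Wg F L b g2) =
      ((lin F L b ⊓ Wg F L b (g1⁻¹ * g2))).map (g1 : V →ₗ[F] V) := by
    rw [Submodule.map_inf _ g1.injective]
    congr 1
    rw [← Wg_mul]
    congr 2
    group
  rw [h5]
  exact LinearEquiv.finrank_map_eq g1 _

theorem Wg_inv_map (g : V ≃ₗ[F] V) (b : V) :
    (Wg F L b g⁻¹).map (g : V →ₗ[F] V) = lin F L b := by
  ext y
  simp only [Submodule.mem_map, mem_Wg, mem_lin]
  constructor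
  · rintro ⟨_, ⟨a, rfl⟩, rfl⟩
    exact ⟨a, by simp [inv_app]⟩
  · rintro ⟨a, rfl⟩
    exact ⟨_, ⟨a, rfl⟩, by simp [inv_app]⟩

theorem maxG_inv {X : Subgroup (V ≃ₗ[F] V)} {b : V} {g : V ≃ₗ[F] V} (hg : MaxG L X b g) :
    MaxG L X b g⁻¹ := by
  have hinf : DD F L b g⁻¹ = DD F L b g := by
    unfold DD
    have h5 : (lin F L b ⊓ Wg F L b g) =
        ((lin F L b ⊓ Wg F L b g⁻¹)).map (g : V →ₗ[F] V) := by
      rw [Submodule.map_inf _ g.injective, Wg_inv_map, inf_comm]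
      rfl
    rw [h5]
    exact (LinearEquiv.finrank_map_eq g _).symm
  have hne : Wg F L b g⁻¹ ≠ lin F L b := by
    intro h
    apply hg.ne
    have h4 := Wg_inv_map (L := L) g b
    rw [h] at h4
    exact h4
  refine ⟨X.inv_mem hg.mem, hne, fun g' h1 h2 => ?_, ?_⟩
  · rw [hinf]
    exact hg.max g' h1 h2
  · obtain ⟨κ, hκ, hκb⟩ := hg.pos
    obtain ⟨a, ha⟩ := mem_Wg.mp hκb
    have hb : b ≠ 0 := by
      rintro rfl
      exact hg.ne (by ext y; simp [mem_Wg, mem_lin])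
    refine ⟨a, ?_, ?_⟩
    · rintro rfl
      apply hκ
      have : κ • b = 0 := by rw [← ha]; simp
      simpa [hb] using this
    · refine mem_Wg.mpr ⟨κ, ?_⟩
      rw [← ha, app_inv]

theorem lin_finrank_eq (g : V ≃ₗ[F] V) (b : V) :
    finrank F ↥(Wg F L b g) = finrank F ↥(lin F L b) :=
  LinearEquiv.finrank_map_eq g _

theorem exists_mem_Wg_not_lin {X : Subgroup (V ≃ₗ[F] V)} {b : V} {g : V ≃ₗ[F] V}
    (hg : MaxG L X b g) : ∃ z ∈ Wg F L b g, z ∉ lin F L b := by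
  by_contra h
  push Not at h
  exact hg.ne (Submodule.eq_of_le_of_finrank_eq h (lin_finrank_eq g b))

end main

section field

variable {F L : Type*} [Field F] [Field L] [Algebra F L] [Module.Finite F L]

theorem alg_eq_top (hr : (finrank F L).Prime) (Z : Subalgebra F L) {θ : L} (hθ : θ ∈ Z)
    (hθ' : ∀ c : F, algebraMap F L c ≠ θ) : Z = ⊤ := by
  let E := IntermediateField.adjoin F {θ}
  have h1 : finrank F E * finrank E L = finrank F L := Module.finrank_mul_finrank F E L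
  have h2 : finrank F E ∣ finrank F L := ⟨_, h1.symm⟩
  rcases (Nat.dvd_prime hr).mp h2 with h3 | h3
  · exfalso
    have h4 : E = ⊥ := IntermediateField.finrank_eq_one_iff.mp h3
    have h5 : θ ∈ E := IntermediateField.mem_adjoin_simple_self F θ
    rw [h4, IntermediateField.mem_bot] at h5
    obtain ⟨c, hc⟩ := h5
    exact hθ' c hc
  · have h4 : E = ⊤ := by
      apply IntermediateField.toSubalgebra_injective
      rw [IntermediateField.top_toSubalgebra]
      exact Algebra.toSubmodule_eq_top.1 (Submodule.eq_top_of_finrank_eq h3)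
    have h5 : E.toSubalgebra = Algebra.adjoin F {θ} :=
      IntermediateField.adjoin_simple_toSubalgebra_of_isAlgebraic (Algebra.IsAlgebraic.isAlgebraic θ)
    rw [h4] at h5
    rw [eq_top_iff]
    have h6 : Algebra.adjoin F {θ} ≤ Z := by
      rw [Algebra.adjoin_le_iff]
      simpa using hθ
    rw [← h5] at h6
    exact h6

theorem exists_not_alg (hr : (finrank F L).Prime) : ∃ θ : L, ∀ c : F, algebraMap F L c ≠ θ := by
  by_contra h
  push Not at h
  have h1 : (⊥ : Subalgebra F L) = ⊤ := by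
    ext a
    simp only [Algebra.mem_bot, Algebra.mem_top, iff_true]
    obtain ⟨c, hc⟩ := h a
    exact ⟨c, hc⟩
  rw [Subalgebra.bot_eq_top_iff_finrank_eq_one] at h1
  rw [h1] at hr
  exact Nat.not_prime_one hr

theorem exists_retr : ∃ R : L →ₗ[F] F, ∀ c : F, R (algebraMap F L c) = c := by
  have h : LinearMap.ker (Algebra.linearMap F L) = ⊥ :=
    LinearMap.ker_eq_bot.mpr (algebraMap F L).injective
  obtain ⟨R, hR⟩ := LinearMap.exists_leftInverse_of_injective _ h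
  exact ⟨R, fun c => LinearMap.congr_fun hR c⟩

end field

section main2

variable {F L V : Type*} [Field F] [Field L] [Algebra F L]
  [AddCommGroup V] [Module L V] [Module F V] [IsScalarTower F L V] [Module.Finite L V]
  [Module.Finite F V] [Module.Finite F L]

theorem key_stab {X : Subgroup (V ≃ₗ[F] V)} (hX : HH L X) {b : V} {g : V ≃ₗ[F] V}
    (hg : MaxG L X b g) {ψ : V →ₗ[L] L} (hψ : ψ b = 0) {y0 : V} (hy0 : y0 ∈ Wg F L b g)
    (h0 : ψ y0 ≠ 0) {κ : L} (hκb : κ • b ∈ Wg F L b g) {y : V} (hy : y ∈ Wg F L b g) :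
    (κ / ψ y0 * ψ y) • b ∈ Wg F L b g := by
  set W := Wg F L b g with hW
  let t := rt hψ (m F (κ / ψ y0))
  have ht : t ∈ X := rt_m_mem hX hψ _
  have ht1 : ∀ z, t z = z + (κ / ψ y0 * ψ z) • b := fun z => rfl
  have hker : ∀ z ∈ lin F L b, ψ z = 0 := by
    intro z hz
    obtain ⟨a, rfl⟩ := mem_lin.mp hz
    simp [hψ]
  have hmap : W.map (t : V →ₗ[F] V) = W := by
    by_contra hne
    have h1 := pair_bound hg hg.mem (X.mul_mem ht hg.mem)
      (by rw [Wg_mul]; exact fun h => hne h.symm)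
    rw [Wg_mul] at h1
    have h2 : lin F L b ⊓ W < W ⊓ W.map (t : V →ₗ[F] V) := by
      rw [SetLike.lt_iff_le_and_exists]
      constructor
      · rintro z ⟨hz1, hz2⟩
        refine ⟨hz2, z, hz2, ?_⟩
        change t z = z
        rw [ht1, hker z hz1]
        simp
      · refine ⟨y0 + κ • b, ⟨W.add_mem hy0 hκb, y0, hy0, ?_⟩, ?_⟩
        · change t y0 = _
          rw [ht1]
          congr 2
          field_simp
        · rintro ⟨h3, -⟩
          have h4 := hker _ h3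
          rw [map_add, map_smul, hψ] at h4
          simp only [smul_eq_mul, mul_zero, add_zero] at h4
          exact h0 h4
    have h3 := Submodule.finrank_lt_finrank_of_lt h2
    have h5 : finrank F ↥(W ⊓ W.map (t : V →ₗ[F] V)) ≤ finrank F ↥(lin F L b ⊓ W) := h1
    omega
  have h4 : t y ∈ W := by
    rw [← hmap]
    exact ⟨y, hy, rfl⟩
  rw [ht1] at h4
  exact (Submodule.add_mem_iff_right W hy).mp h4

theorem key_prop (hr : (finrank F L).Prime) {X : Subgroup (V ≃ₗ[F] V)} (hX : HH L X) {b : V}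
    {g : V ≃ₗ[F] V} (hg : MaxG L X b g) {ψ : V →ₗ[L] L} (hψ : ψ b = 0) {y0 y1 : V}
    (hy0 : y0 ∈ Wg F L b g) (hy1 : y1 ∈ Wg F L b g) (h0 : ψ y0 ≠ 0) :
    ∃ c : F, ψ y1 = algebraMap F L c * ψ y0 := by
  by_contra h
  push Not at h
  set W := Wg F L b g with hW
  let Z : Subalgebra F L :=
    { carrier := {a | ∀ κ : L, κ • b ∈ W → (a * κ) • b ∈ W}
      mul_mem' := by
        intro a a' ha ha' κ hκ
        rw [mul_assoc]
        exact ha _ (ha' _ hκ)
      add_mem' := by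
        intro a a' ha ha' κ hκ
        rw [add_mul, add_smul]
        exact W.add_mem (ha _ hκ) (ha' _ hκ)
      algebraMap_mem' := by
        intro c κ hκ
        rw [mul_smul, algebraMap_smul]
        exact W.smul_mem c hκ }
  have hθ : ψ y1 / ψ y0 ∈ Z := by
    intro κ hκ
    have := key_stab hX hg hψ hy0 h0 hκ hy1
    convert this using 2
    field_simp
  have hZ : Z = ⊤ := by
    apply alg_eq_top hr Z hθ
    intro c hc
    apply h c
    rw [hc]
    field_simp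
  obtain ⟨κ0, hκ0, hκ0b⟩ := hg.pos
  have hall : ∀ a : L, a • b ∈ W := by
    intro a
    have h1 : a / κ0 ∈ Z := by rw [hZ]; trivial
    have h2 := h1 κ0 hκ0b
    convert h2 using 2
    field_simp
  apply hg.ne
  symm
  apply Submodule.eq_of_le_of_finrank_eq
  · intro y hy
    obtain ⟨a, rfl⟩ := mem_lin.mp hy
    exact hall a
  · exact (lin_finrank_eq g b).symm

theorem key_line (hr : (finrank F L).Prime) {X : Subgroup (V ≃ₗ[F] V)} (hX : HH L X) {b : V}
    {g : V ≃ₗ[F] V} (hg : MaxG L X b g) :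
    ∃ z ∈ Wg F L b g, z ∉ Submodule.span L {b} ∧
      ∀ y ∈ Wg F L b g, ∃ (c : F) (d : L), y = c • z + d • b := by
  obtain ⟨z, hzW, hz⟩ := exists_mem_Wg_not_lin hg
  have hz' : z ∉ Submodule.span L {b} := hz
  refine ⟨z, hzW, hz', fun y hy => ?_⟩
  obtain ⟨ψ1, h1b, h1z⟩ := exists_sep_pair hz'
  by_cases hys : y ∈ Submodule.span L {b, z}
  · obtain ⟨α, β, hαβ⟩ := Submodule.mem_span_pair.mp hys
    have h2 : ψ1 y = β := by
      rw [← hαβ]
      simp [h1b, h1z]
    obtain ⟨c, hc⟩ := key_prop hr hX hg h1b hzW hy (by rw [h1z]; exact one_ne_zero)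
    rw [h1z, h2, mul_one] at hc
    refine ⟨c, α, ?_⟩
    rw [← hαβ, hc, algebraMap_smul, add_comm]
  · exfalso
    obtain ⟨ψ0, h0y, h0s⟩ := exists_sep hys
    have h0b : ψ0 b = 0 := h0s b (Submodule.subset_span (by simp))
    have h0z : ψ0 z = 0 := h0s z (Submodule.subset_span (by simp))
    obtain ⟨θ, hθ⟩ := exists_not_alg (F := F) hr
    let ψ : V →ₗ[L] L := ψ1 + (θ - ψ1 y) • ψ0
    have hψb : ψ b = 0 := by simp [ψ, h1b, h0b]
    have hψz : ψ z = 1 := by simp [ψ, h1z, h0z]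
    have hψy : ψ y = θ := by simp [ψ, h0y]
    obtain ⟨c, hc⟩ := key_prop hr hX hg hψb hzW hy (by rw [hψz]; exact one_ne_zero)
    rw [hψz, hψy, mul_one] at hc
    exact hθ c hc.symm

theorem exists_u (hr : (finrank F L).Prime) {X : Subgroup (V ≃ₗ[F] V)} (hX : HH L X) {b : V}
    (hb : b ≠ 0) {g : V ≃ₗ[F] V} (hg : MaxG L X b g) :
    ∃ u ∈ X, ∃ p : L, p ≠ 0 ∧ ∃ π : L →ₗ[F] F, π ≠ 0 ∧ ∃ z', z' ∉ Submodule.span L {b} ∧
      (∀ a : L, u (a • b) = (a + π a • p) • b) ∧ (∀ y, u⁻¹ y = y - (u y - y)) ∧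
      (∀ y, ∃ (c : F) (d : L), u y - y = c • z' + d • b) ∧ (∃ y1, u y1 - y1 = z') := by
  obtain ⟨z, hzW, hz, -⟩ := key_line hr hX hg
  obtain ⟨z', hz'W, hz', hline⟩ := key_line hr hX (maxG_inv hg)
  obtain ⟨ψ, hψb, hψz⟩ := exists_sep_pair hz
  obtain ⟨κ0, hκ0, hκ0b⟩ := hg.pos
  obtain ⟨p, hp⟩ := mem_Wg.mp hκ0b
  obtain ⟨R, hR⟩ := exists_retr (F := F) (L := L)
  let t := rt hψb (m F κ0)
  have ht : t ∈ X := rt_m_mem hX hψb _
  have ht1 : ∀ z, t z = z + (κ0 * ψ z) • b := fun z => rfl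
  let π0 : L →ₗ[F] L :=
    { toFun := fun a => ψ (g (a • b))
      map_add' := by intro a a'; simp [add_smul]
      map_smul' := by
        intro c a
        simp only [smul_assoc, map_smul, RingHom.id_apply]
        rw [LinearMap.map_smul_of_tower] }
  have hπ0 : ∀ a, ψ (g (a • b)) = π0 a := fun a => rfl
  have hπ1 : ∀ a, algebraMap F L (R (π0 a)) = π0 a := by
    intro a
    obtain ⟨c, hc⟩ := key_prop hr hX hg hψb hzW (smul_mem_Wg b g a) (by rw [hψz]; exact one_ne_zero)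
    rw [hψz, mul_one, hπ0] at hc
    rw [hc, hR]
  have hgκ : g (p • b) = κ0 • b := hp
  refine ⟨g⁻¹ * t * g, X.mul_mem (X.mul_mem (X.inv_mem hg.mem) ht) hg.mem, p, ?_, R ∘ₗ π0, ?_, z',
    hz', ?_, ?_, ?_, ?_⟩
  · rintro rfl
    have : κ0 • b = 0 := by rw [← hp]; simp
    simp [hb, hκ0] at this
  · intro h0
    obtain ⟨a, ha⟩ := mem_Wg.mp hzW
    have h1 := hπ1 a
    have h2 : R (π0 a) = 0 := LinearMap.congr_fun h0 a
    rw [h2, map_zero, ← hπ0, ha, hψz] at h1
    exact zero_ne_one h1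
  · intro a
    simp only [LinearEquiv.mul_apply, LinearMap.comp_apply]
    rw [ht1, hπ0]
    have h3 : (κ0 * π0 a) • b = (R (π0 a)) • (κ0 • b) := by
      rw [← algebraMap_smul L (R (π0 a)) (κ0 • b), hπ1, smul_smul, mul_comm]
    rw [h3, ← hgκ, ← map_smul, ← map_add, app_inv, add_smul, smul_assoc]
  · intro y
    have h1 : (g⁻¹ * t * g)⁻¹ = g⁻¹ * t⁻¹ * g := by group
    rw [h1]
    simp only [LinearEquiv.mul_apply]
    have h2 : t⁻¹ (g y) = g y - (κ0 * ψ (g y)) • b := rt_inv_apply hψb _ _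
    rw [h2, ht1, map_sub, map_add, app_inv]
    abel
  · intro y
    have h2 : (g⁻¹ * t * g : V ≃ₗ[F] V) y - y = g⁻¹ ((κ0 * ψ (g y)) • b) := by
      simp only [LinearEquiv.mul_apply]
      rw [ht1, map_add, app_inv]
      abel
    rw [h2]
    exact hline _ (smul_mem_Wg b g⁻¹ _)
  · obtain ⟨a, ha⟩ := mem_Wg.mp hz'W
    refine ⟨g⁻¹ ((a / κ0) • z), ?_⟩
    simp only [LinearEquiv.mul_apply, inv_app]
    have h3 : κ0 * ψ ((a / κ0) • z) = a := by
      rw [map_smul, hψz, smul_eq_mul, mul_one]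
      field_simp
    rw [ht1, map_add, h3, ha]
    abel

end main2

end Cfsg.Agent.Lib.ExtB
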