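import Mathlib
import Cfsg.Agent.Lib.ExtA
import Cfsg.Agent.Lib.ExtB

set_option autoImplicit false
set_option linter.unusedSectionVars false
set_option linter.unusedSimpArgs false
set_option linter.unusedVariables false
set_option linter.style.haveILetI false

namespace Cfsg.Agent.Lib.ExtC

open Module Cfsg.Agent.Lib.ExtA Cfsg.Agent.Lib.ExtB

theorem norm_arith (q r : ℕ) (hq : 2 ≤ q) (hr : 2 ≤ r) (h : q ^ r - 1 ∣ (q - 1) * (q - 1)) : False := by
  obtain ⟨k, rfl⟩ : ∃ k, q = k + 2 := ⟨q - 2, by omega⟩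
  have h7 : k + 2 - 1 = k + 1 := by omega
  rw [h7] at h
  have h5 := Nat.le_of_dvd (by positivity) h
  have h6 : (k + 2) ^ 2 ≤ (k + 2) ^ r := Nat.pow_le_pow_right (by omega) hr
  have h8 : (k + 2) ^ 2 = (k + 1) * (k + 1) + 2 * k + 3 := by ring
  omega

section norm

variable {F L : Type*} [Field F] [Field L] [Algebra F L] [Finite F] [Module.Finite F L]

theorem exists_norm_one_not_alg (hr : (finrank F L).Prime) :
    ∃ θ : L, Algebra.norm F θ = 1 ∧ ∀ c : F, algebraMap F L c ≠ θ := by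
  classical
  haveI : Finite L := Module.finite_of_finite F
  haveI : Fintype F := Fintype.ofFinite F
  haveI : Fintype L := Fintype.ofFinite L
  obtain ⟨g0, hg0⟩ := IsCyclic.exists_generator (α := Lˣ)
  set q := Fintype.card F with hq
  have hq2 : 2 ≤ q := Fintype.one_lt_card
  have hq1 : (q - 1) + 1 = q := by omega
  have hgL : (g0 : L) ≠ 0 := g0.ne_zero
  refine ⟨(g0 : L) ^ (q - 1), ?_, ?_⟩
  · rw [map_pow]
    apply FiniteField.pow_card_sub_one_eq_one
    intro h
    exact hgL ((Algebra.norm_eq_zero_iff).mp h)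
  · intro c hc
    have hc0 : c ≠ 0 := by
      rintro rfl
      rw [map_zero] at hc
      exact pow_ne_zero _ hgL hc.symm
    have h1 : c ^ (q - 1) = 1 := FiniteField.pow_card_sub_one_eq_one c hc0
    have h2 : (g0 : L) ^ ((q - 1) * (q - 1)) = 1 := by
      rw [pow_mul, ← hc, ← map_pow, h1, map_one]
    have h3 : g0 ^ ((q - 1) * (q - 1)) = 1 := by
      ext
      simpa using h2
    have h4 := orderOf_dvd_of_pow_eq_one h3
    rw [orderOf_eq_card_of_forall_mem_zpowers hg0, Nat.card_eq_fintype_card, Fintype.card_units,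
      Module.card_eq_pow_finrank (K := F) (V := L)] at h4
    exact norm_arith q _ hq2 hr.two_le h4

theorem span_norm_one (hr : (finrank F L).Prime) :
    Submodule.span F {z : L | Algebra.norm F z = 1} = ⊤ := by
  set Y := Submodule.span F {z : L | Algebra.norm F z = 1} with hY
  let Z : Subalgebra F L :=
    { carrier := {a | ∀ y ∈ Y, a * y ∈ Y}
      mul_mem' := by
        intro a a' ha ha' y hy
        rw [mul_assoc]
        exact ha _ (ha' _ hy)
      add_mem' := by
        intro a a' ha ha' y hy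
        rw [add_mul]
        exact Y.add_mem (ha _ hy) (ha' _ hy)
      algebraMap_mem' := by
        intro c y hy
        rw [← Algebra.smul_def]
        exact Y.smul_mem c hy }
  have hgen : ∀ θ : L, Algebra.norm F θ = 1 → θ ∈ Z := by
    intro θ hθ y hy
    induction hy using Submodule.span_induction with
    | mem z hz =>
      apply Submodule.subset_span
      simp only [Set.mem_ofPred_eq] at hz ⊢
      rw [map_mul, hθ, hz, one_mul]
    | zero => simp
    | add a b _ _ ha hb =>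
      rw [mul_add]
      exact Y.add_mem ha hb
    | smul c a _ ha =>
      rw [mul_smul_comm]
      exact Y.smul_mem c ha
  obtain ⟨θ, hθ, hθ'⟩ := exists_norm_one_not_alg (F := F) (L := L) hr
  have hZ : Z = ⊤ := alg_eq_top hr Z (hgen θ hθ) hθ'
  have h1 : (1 : L) ∈ Y := Submodule.subset_span (by simp)
  rw [eq_top_iff]
  intro a _
  have h2 : a ∈ Z := by rw [hZ]; trivial
  simpa using h2 1 h1

theorem nondeg {π : L →ₗ[F] F} (hπ : π ≠ 0) (π' : L →ₗ[F] F) : ∃ d : L, π' = π ∘ₗ m F d := by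
  let D : L →ₗ[F] Module.Dual F L :=
    { toFun := fun d => π ∘ₗ m F d
      map_add' := by
        intro a b
        ext x
        simp [add_mul]
      map_smul' := by
        intro c a
        ext x
        simp [smul_mul_assoc] }
  have hinj : Function.Injective D := by
    rw [injective_iff_map_eq_zero]
    intro d hd
    by_contra h
    apply hπ
    ext x
    have h1 := LinearMap.congr_fun hd (d⁻¹ * x)
    simp only [D, LinearMap.coe_mk, AddHom.coe_mk, LinearMap.comp_apply, m_apply,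
      LinearMap.zero_apply] at h1
    rw [← mul_assoc, mul_inv_cancel₀ h, one_mul] at h1
    simpa using h1
  have hsurj : Function.Surjective D :=
    (LinearMap.injective_iff_surjective_of_finrank_eq_finrank
      (Subspace.dual_finrank_eq (K := F) (V := L)).symm).mp hinj
  obtain ⟨d, hd⟩ := hsurj π'
  exact ⟨d, hd.symm⟩

theorem add_closure_squares {S : AddSubgroup (L →ₗ[F] L)}
    (hS : ∀ c : F, c ≠ 0 → ∀ f ∈ S, (c * c) • f ∈ S) (c : F) {f : L →ₗ[F] L} (hf : f ∈ S) :
    c • f ∈ S := by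
  classical
  haveI : Fintype F := Fintype.ofFinite F
  have hS' : ∀ c : F, (c * c) • f ∈ S := by
    intro c
    by_cases hc : c = 0
    · simp [hc, S.zero_mem]
    · exact hS c hc f hf
  by_cases h2 : (2 : F) = 0
  · haveI : CharP F 2 := CharTwo.of_one_ne_zero_of_two_eq_zero one_ne_zero h2
    have h3 : ringChar F = 2 := ringChar.eq F 2
    obtain ⟨d, hd⟩ := FiniteField.isSquare_of_char_two h3 c
    rw [hd]
    exact hS' d
  · have h3 : c = ((c + 1) / 2) * ((c + 1) / 2) - ((c - 1) / 2) * ((c - 1) / 2) := by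
      field_simp
      ring
    have h4 : c • f = (((c + 1) / 2) * ((c + 1) / 2)) • f - (((c - 1) / 2) * ((c - 1) / 2)) • f := by
      nth_rewrite 1 [h3]
      ext x
      simp [sub_smul]
    rw [h4]
    exact S.sub_mem (hS' _) (hS' _)

theorem fl_closure (hr : (finrank F L).Prime) (S : AddSubgroup (L →ₗ[F] L))
    (hS : ∀ f ∈ S, ∀ s s' : L, s ≠ 0 → s' ≠ 0 → Algebra.norm F s = Algebra.norm F s' →
      (m F s) ∘ₗ f ∘ₗ (m F s') ∈ S) {p : L} {π : L →ₗ[F] F} (hp : p ≠ 0) (hπ : π ≠ 0)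
    (hro : ro p π ∈ S) : S = ⊤ := by
  have hscal : ∀ (c : F) (f : L →ₗ[F] L), f ∈ S → c • f ∈ S := by
    intro c f hf
    apply add_closure_squares _ c hf
    intro c hc f hf
    have h0 : algebraMap F L c ≠ 0 := by simpa using hc
    have h1 := hS f hf (algebraMap F L c) (algebraMap F L c) h0 h0 rfl
    convert h1 using 1
    ext x
    simp only [LinearMap.smul_apply, LinearMap.comp_apply, m_apply]
    rw [← Algebra.smul_def, ← Algebra.smul_def, map_smul, mul_smul]
  obtain ⟨θ, hθ, hθ'⟩ := exists_norm_one_not_alg (F := F) (L := L) hr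
  have h10 : (1 : L) ≠ 0 := one_ne_zero
  have hθ0 : θ ≠ 0 := by
    rintro rfl
    apply hθ' 0
    simp
  let Zl : Subalgebra F L :=
    { carrier := {a | ∀ f ∈ S, (m F a) ∘ₗ f ∈ S}
      mul_mem' := by
        intro a a' ha ha' f hf
        have := ha _ (ha' _ hf)
        convert this using 1
        ext x
        simp [mul_assoc]
      add_mem' := by
        intro a a' ha ha' f hf
        have := S.add_mem (ha _ hf) (ha' _ hf)
        convert this using 1
        ext x
        simp [add_mul]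
      algebraMap_mem' := by
        intro c f hf
        have := hscal c f hf
        convert this using 1
        ext x
        simp [Algebra.smul_def] }
  let Zr : Subalgebra F L :=
    { carrier := {a | ∀ f ∈ S, f ∘ₗ (m F a) ∈ S}
      mul_mem' := by
        intro a a' ha ha' f hf
        have := ha' _ (ha _ hf)
        convert this using 1
        ext x
        simp [mul_assoc]
      add_mem' := by
        intro a a' ha ha' f hf
        have := S.add_mem (ha _ hf) (ha' _ hf)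
        convert this using 1
        ext x
        simp [add_mul]
      algebraMap_mem' := by
        intro c f hf
        have := hscal c f hf
        convert this using 1
        ext x
        simp [← Algebra.smul_def] }
  have hZl : Zl = ⊤ := by
    apply alg_eq_top hr Zl (θ := θ) _ hθ'
    intro f hf
    have := hS f hf θ 1 hθ0 h10 (by simp [hθ])
    convert this using 1
    ext x
    simp
  have hZr : Zr = ⊤ := by
    apply alg_eq_top hr Zr (θ := θ) _ hθ'
    intro f hf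
    have := hS f hf 1 θ h10 hθ0 (by simp [hθ])
    convert this using 1
    ext x
    simp
  have hall : ∀ (p' : L) (π' : L →ₗ[F] F), ro p' π' ∈ S := by
    intro p' π'
    obtain ⟨d, hd⟩ := nondeg hπ π'
    have h1 : p' / p ∈ Zl := by rw [hZl]; trivial
    have h2 : d ∈ Zr := by rw [hZr]; trivial
    have h3 := h1 _ (h2 _ hro)
    convert h3 using 1
    ext x
    simp only [LinearMap.comp_apply, m_apply, LinearMap.smulRight_apply, hd]
    rw [mul_smul_comm]
    congr 1
    field_simp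
  rw [eq_top_iff]
  intro f _
  let B := Module.finBasis F L
  have h : f = ∑ i, ro (f (B i)) (B.coord i) := by
    apply B.ext
    intro j
    simp only [LinearMap.sum_apply, LinearMap.smulRight_apply, Module.Basis.coord_apply]
    simp [Module.Basis.repr_self, Finsupp.single_apply]
  rw [h]
  exact S.sum_mem fun i _ => hall _ _

end norm

section roots

variable {F L V : Type*} [Field F] [Field L] [Algebra F L]
  [AddCommGroup V] [Module L V] [Module F V] [IsScalarTower F L V]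

/-- The set of maps giving root elements in `X`. -/
def SS (X : Subgroup (V ≃ₗ[F] V)) {b : V} {ψ : V →ₗ[L] L} (hb : ψ b = 0) :
    AddSubgroup (L →ₗ[F] L) where
  carrier := {f | rt hb f ∈ X}
  add_mem' := by
    intro f f' hf hf'
    have := X.mul_mem hf hf'
    rwa [rt_mul] at this
  zero_mem' := by
    change rt hb 0 ∈ X
    rw [rt_zero]
    exact X.one_mem
  neg_mem' := by
    intro f hf
    have := X.inv_mem hf
    rwa [rt_inv] at this

theorem mem_SS {X : Subgroup (V ≃ₗ[F] V)} {b : V} {ψ : V →ₗ[L] L} (hb : ψ b = 0)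
    {f : L →ₗ[F] L} : f ∈ SS X hb ↔ rt hb f ∈ X := Iff.rfl

/-- The frame map. -/
def Hl (β0 ψ : V →ₗ[L] L) (b z : V) (a e : L) : V →ₗ[L] V :=
  LinearMap.id + (a - 1) • β0.smulRight b + (e - 1) • ψ.smulRight z

theorem Hl_apply (β0 ψ : V →ₗ[L] L) (b z : V) (a e : L) (y : V) :
    Hl β0 ψ b z a e y = y + ((a - 1) * β0 y) • b + ((e - 1) * ψ y) • z := by
  simp [Hl, mul_smul]

section frame

variable {β0 ψ : V →ₗ[L] L} {b z : V} (h1 : β0 b = 1) (h2 : β0 z = 0) (h3 : ψ b = 0) (h4 : ψ z = 1)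

include h1 h2 h3 h4

theorem Hl_ψ (a e : L) (y : V) : ψ (Hl β0 ψ b z a e y) = e * ψ y := by
  simp only [Hl_apply, map_add, map_smul, h3, h4, smul_eq_mul]
  ring

theorem Hl_β (a e : L) (y : V) : β0 (Hl β0 ψ b z a e y) = a * β0 y := by
  simp only [Hl_apply, map_add, map_smul, h1, h2, smul_eq_mul]
  ring

theorem Hl_comp (a e a' e' : L) (y : V) :
    Hl β0 ψ b z a e (Hl β0 ψ b z a' e' y) = Hl β0 ψ b z (a * a') (e * e') y := by
  rw [Hl_apply β0 ψ b z a e, Hl_ψ h1 h2 h3 h4, Hl_β h1 h2 h3 h4, Hl_apply, Hl_apply]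
  have e1 : ∀ x y : L, x • b + y • b = (x + y) • b := fun _ _ => (add_smul _ _ _).symm
  have e2 : ∀ x y : L, x • z + y • z = (x + y) • z := fun _ _ => (add_smul _ _ _).symm
  have e3 : (a * a' - 1) * β0 y = (a' - 1) * β0 y + (a - 1) * (a' * β0 y) := by ring
  have e4 : (e * e' - 1) * ψ y = (e' - 1) * ψ y + (e - 1) * (e' * ψ y) := by ring
  rw [e3, e4, add_smul, add_smul]
  abel

theorem Hl_one (y : V) : Hl β0 ψ b z 1 1 y = y := by
  simp [Hl_apply]

theorem Hl_b (a e : L) : Hl β0 ψ b z a e b = a • b := by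
  simp [Hl_apply, h1, h3, sub_smul]

/-- The frame equivalence. -/
def He {a e : L} (ha : a ≠ 0) (he : e ≠ 0) : V ≃ₗ[L] V :=
  LinearEquiv.ofLinearMap (Hl β0 ψ b z a e) (Hl β0 ψ b z a⁻¹ e⁻¹)
    (by
      ext y
      change Hl β0 ψ b z a e (Hl β0 ψ b z a⁻¹ e⁻¹ y) = y
      rw [Hl_comp h1 h2 h3 h4, mul_inv_cancel₀ ha, mul_inv_cancel₀ he, Hl_one h1 h2 h3 h4])
    (by
      ext y
      change Hl β0 ψ b z a⁻¹ e⁻¹ (Hl β0 ψ b z a e y) = y
      rw [Hl_comp h1 h2 h3 h4, inv_mul_cancel₀ ha, inv_mul_cancel₀ he, Hl_one h1 h2 h3 h4])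

theorem He_apply {a e : L} (ha : a ≠ 0) (he : e ≠ 0) (y : V) :
    He h1 h2 h3 h4 ha he y = Hl β0 ψ b z a e y := rfl

theorem He_inv_apply {a e : L} (ha : a ≠ 0) (he : e ≠ 0) (y : V) :
    (He h1 h2 h3 h4 ha he).symm y = Hl β0 ψ b z a⁻¹ e⁻¹ y := rfl

theorem Hl_det [Module.Finite L V] (a e : L) : LinearMap.det (Hl β0 ψ b z a e) = a * e := by
  have h : Hl β0 ψ b z a e = (LinearMap.transvection ((a - 1) • β0) b) ∘ₗ
      (LinearMap.transvection ((e - 1) • ψ) z) := by
    ext y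
    simp only [Hl_apply, LinearMap.comp_apply, LinearMap.transvection.apply, map_add, map_smul,
      LinearMap.smul_apply, h2, smul_eq_mul, add_zero, mul_zero, zero_smul]
  rw [h, LinearMap.det_comp, LinearMap.transvection.det, LinearMap.transvection.det]
  simp [h1, h4]

theorem He_det [Module.Finite L V] {a e : L} (ha : a ≠ 0) (he : e ≠ 0) :
    ((LinearEquiv.det (He h1 h2 h3 h4 ha he) : Lˣ) : L) = a * e := by
  rw [LinearEquiv.coe_det]
  exact Hl_det h1 h2 h3 h4 a e

theorem He_conj (hb : ψ b = 0) {a e : L} (ha : a ≠ 0) (he : e ≠ 0) (f : L →ₗ[F] L) :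
    toF (F := F) (He h1 h2 h3 h4 ha he) * rt hb f * (toF (F := F) (He h1 h2 h3 h4 ha he))⁻¹ =
      rt hb (m F a ∘ₗ f ∘ₗ m F e⁻¹) := by
  ext y
  have h5 : ((toF (F := F) (He h1 h2 h3 h4 ha he))⁻¹) y = Hl β0 ψ b z a⁻¹ e⁻¹ y := rfl
  simp only [LinearEquiv.mul_apply, h5, rt_apply, Hl_ψ h1 h2 h3 h4]
  rw [toF_apply, map_add, He_apply, He_apply, Hl_comp h1 h2 h3 h4, mul_inv_cancel₀ ha,
    mul_inv_cancel₀ he, Hl_one h1 h2 h3 h4, map_smul, Hl_b h1 h2 h3 h4]
  simp only [LinearMap.comp_apply, m_apply]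
  rw [smul_smul, mul_comm]

end frame

theorem exists_frame {b : V} {ψ : V →ₗ[L] L} (hb0 : b ≠ 0) (hψ0 : ψ ≠ 0) (hb : ψ b = 0) :
    ∃ (z : V) (β0 : V →ₗ[L] L), β0 b = 1 ∧ β0 z = 0 ∧ ψ z = 1 := by
  obtain ⟨y, hy⟩ : ∃ y, ψ y ≠ 0 := by
    by_contra h
    push Not at h
    exact hψ0 (LinearMap.ext h)
  have hz : ψ ((ψ y)⁻¹ • y) = 1 := by simp [hy]
  refine ⟨(ψ y)⁻¹ • y, ?_⟩
  set z := (ψ y)⁻¹ • y
  have hbz : b ∉ Submodule.span L {z} := by
    intro h
    obtain ⟨c, hc⟩ := Submodule.mem_span_singleton.mp h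
    have h2 : ψ (c • z) = c := by simp [hz]
    rw [hc, hb] at h2
    rw [← h2] at hc
    apply hb0
    simpa using hc.symm
  obtain ⟨β0, h1, h2⟩ := exists_sep_pair hbz
  exact ⟨β0, h2, h1, hz⟩

end roots

section top

variable {F L V : Type*} [Field F] [Field L] [Algebra F L]
  [AddCommGroup V] [Module L V] [Module F V] [IsScalarTower F L V] [Finite F] [Module.Finite F L]
  [Module.Finite L V]

theorem SS_closed {X : Subgroup (V ≃ₗ[F] V)} (hX : HH L X) {b : V} {ψ : V →ₗ[L] L} (hb0 : b ≠ 0)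
    (hψ0 : ψ ≠ 0) (hb : ψ b = 0) {f : L →ₗ[F] L} (hf : f ∈ SS X hb) {s s' : L} (hs : s ≠ 0)
    (hs' : s' ≠ 0) (hN : Algebra.norm F s = Algebra.norm F s') :
    (m F s) ∘ₗ f ∘ₗ (m F s') ∈ SS X hb := by
  obtain ⟨z, β0, h1, h2, h4⟩ := exists_frame hb0 hψ0 hb
  have he : s'⁻¹ ≠ 0 := inv_ne_zero hs'
  have hH := toF_mem (F := F) hX (He h1 h2 hb h4 hs he) (by
    rw [He_det, map_mul, hN, ← map_mul, mul_inv_cancel₀ hs', map_one])
  have h5 := X.mul_mem (X.mul_mem hH hf) (X.inv_mem hH)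
  rw [He_conj] at h5
  rw [inv_inv] at h5
  exact h5

theorem SS_eq_top (hr : (finrank F L).Prime) {X : Subgroup (V ≃ₗ[F] V)} (hX : HH L X) {b : V}
    {ψ : V →ₗ[L] L} (hb0 : b ≠ 0) (hψ0 : ψ ≠ 0) (hb : ψ b = 0) {p : L} {π : L →ₗ[F] F} (hp : p ≠ 0)
    (hπ : π ≠ 0) (hro : rt hb (ro p π) ∈ X) (f : L →ₗ[F] L) : rt hb f ∈ X := by
  have h := fl_closure hr (SS X hb)
    (fun f hf s s' hs hs' hN => SS_closed hX hb0 hψ0 hb hf hs hs' hN) hp hπ hro
  have : f ∈ SS X hb := by rw [h]; trivial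
  exact this

theorem conj_rt' (h : V ≃ₗ[L] V) {b v : V} {ψ ψ1 : V →ₗ[L] L} (hb : ψ b = 0) (hv : ψ1 v = 0)
    (hbv : h b = v) (hψ : ∀ y, ψ1 (h y) = ψ y) (f : L →ₗ[F] L) :
    toF (F := F) h * rt hb f * (toF (F := F) h)⁻¹ = rt hv f := by
  ext y
  have h1 : ((toF (F := F) h)⁻¹) y = h.symm y := rfl
  simp only [LinearEquiv.mul_apply, h1, rt_apply]
  simp only [toF_apply, map_add, map_smul, LinearEquiv.apply_symm_apply, hbv]
  rw [← hψ]
  simp

theorem exists_ker_not {Ψ0 Ψ1 : V →ₗ[L] L} (hΨ0 : Ψ0 ≠ 0) (h : ∀ c : L, Ψ1 ≠ c • Ψ0) :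
    ∃ w, Ψ0 w = 0 ∧ Ψ1 w = 1 := by
  obtain ⟨y, hy⟩ : ∃ y, Ψ0 y ≠ 0 := by
    by_contra h
    push Not at h
    exact hΨ0 (LinearMap.ext h)
  obtain ⟨z, hz⟩ : ∃ z, Ψ0 z = 1 := ⟨(Ψ0 y)⁻¹ • y, by simp [hy]⟩
  have h1 : ∃ w, Ψ0 w = 0 ∧ Ψ1 w ≠ 0 := by
    by_contra h2
    push Not at h2
    apply h (Ψ1 z)
    ext x
    have h3 := h2 (x - Ψ0 x • z) (by simp [hz])
    simp only [map_sub, map_smul, smul_eq_mul, sub_eq_zero] at h3
    simp [h3, mul_comm]
  obtain ⟨w, hw, hw'⟩ := h1
  exact ⟨(Ψ1 w)⁻¹ • w, by simp [hw], by simp [hw']⟩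

theorem all_rt {X : Subgroup (V ≃ₗ[F] V)} (hX : HH L X) (hm : 2 ≤ finrank L V) {b : V}
    {ψ : V →ₗ[L] L} (hb0 : b ≠ 0) (hψ0 : ψ ≠ 0) (hb : ψ b = 0) (htop : ∀ f, rt hb f ∈ X)
    {v : V} {Ψ : V →ₗ[L] L} (hv0 : v ≠ 0) (hΨ0 : Ψ ≠ 0) (hv : Ψ v = 0) (f : L →ₗ[F] L) :
    rt hv f ∈ X := by
  obtain ⟨h1, h1d, h1a⟩ := exists_trans (L := L) hm hb0 hv0
  let ψ1 : V →ₗ[L] L := ψ ∘ₗ (h1.symm : V →ₗ[L] V)
  have hv1 : ψ1 v = 0 := by
    simp only [ψ1, LinearMap.comp_apply, LinearEquiv.coe_coe]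
    rw [← h1a]
    simp [hb]
  have hψ10 : ψ1 ≠ 0 := by
    intro h
    apply hψ0
    ext y
    have := LinearMap.congr_fun h (h1 y)
    simpa [ψ1] using this
  have hh1 : toF (F := F) h1 ∈ X := toF_mem hX h1 (by simp [h1d])
  have htop1 : ∀ f, rt hv1 f ∈ X := by
    intro f
    have := conj_rt' (F := F) h1 hb hv1 h1a (fun y => by simp [ψ1]) f
    rw [← this]
    exact X.mul_mem (X.mul_mem hh1 (htop f)) (X.inv_mem hh1)
  by_cases hc : ∃ c : L, Ψ = c • ψ1
  · obtain ⟨c, rfl⟩ := hc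
    rw [rt_smul_functional hv1 c hv f]
    exact htop1 _
  · push Not at hc
    have hc' : ∀ c : L, ψ1 ≠ c • Ψ := by
      intro c h
      have hc0 : c ≠ 0 := by
        rintro rfl
        apply hψ10
        simpa using h
      apply hc c⁻¹
      rw [h, smul_smul, inv_mul_cancel₀ hc0, one_smul]
    obtain ⟨w1, hw11, hw12⟩ := exists_ker_not hψ10 hc
    obtain ⟨w2, hw21, hw22⟩ := exists_ker_not hΨ0 hc'
    let w := w1 + w2
    have hw1 : ψ1 w = 1 := by simp [w, hw11, hw22]
    have hw2 : Ψ w = 1 := by simp [w, hw12, hw21]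
    let δ : Module.Dual L V := Ψ - ψ1
    have hδ : δ w = 0 := by simp [δ, hw1, hw2]
    let s : V ≃ₗ[L] V := LinearEquiv.transvection hδ
    have hs1 : ∀ y, s y = y + δ y • w := fun y => LinearEquiv.transvection.apply hδ y
    have hsd : (LinearEquiv.det s : Lˣ) = 1 := LinearEquiv.transvection.det_eq_one hδ
    have hs : toF (F := F) s ∈ X := toF_mem hX s (by simp [hsd])
    have h2 := conj_rt' (F := F) s hv hv1 (by
      rw [hs1]
      simp [δ, hv, hv1]) (fun y => by
      rw [hs1]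
      simp [δ, hw1]) f
    have h3 : rt hv f = (toF (F := F) s)⁻¹ * rt hv1 f * toF (F := F) s := by
      rw [← h2]
      group
    rw [h3]
    exact X.mul_mem (X.mul_mem (X.inv_mem hs) (htop1 f)) hs

end top

section tr

variable {F L V : Type*} [Field F] [Field L] [Algebra F L]
  [AddCommGroup V] [Module L V] [Module F V] [IsScalarTower F L V] [Finite F] [Module.Finite F L]
  [Module.Finite L V] [Module.Finite F V]

theorem exists_lift {R : L →ₗ[F] F} (hR : R 1 = 1) (φ : V →ₗ[F] F) :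
    ∃ Ψ : V →ₗ[L] L, ∀ y, φ y = R (Ψ y) := by
  let Φ : (V →ₗ[L] L) →ₗ[F] Module.Dual F V :=
    { toFun := fun Ψ => R ∘ₗ Ψ.restrictScalars F
      map_add' := by
        intro a b
        ext x
        simp
      map_smul' := by
        intro c a
        ext x
        simp }
  have hinj : Function.Injective Φ := by
    rw [injective_iff_map_eq_zero]
    intro Ψ hΨ
    by_contra h
    obtain ⟨y, hy⟩ : ∃ y, Ψ y ≠ 0 := by
      by_contra h2
      push Not at h2
      exact h (LinearMap.ext h2)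
    have h1 := LinearMap.congr_fun hΨ ((Ψ y)⁻¹ • y)
    simp only [Φ, LinearMap.coe_mk, AddHom.coe_mk, LinearMap.comp_apply,
      LinearMap.coe_restrictScalars, LinearMap.zero_apply, map_smul, smul_eq_mul,
      inv_mul_cancel₀ hy, hR] at h1
    exact one_ne_zero h1
  have hfr : finrank F (V →ₗ[L] L) = finrank F (Module.Dual F V) := by
    rw [Subspace.dual_finrank_eq, ← Module.finrank_mul_finrank F L (V →ₗ[L] L),
      ← Module.finrank_mul_finrank F L V]
    congr 1
    exact Subspace.dual_finrank_eq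
  have hsurj : Function.Surjective Φ :=
    (LinearMap.injective_iff_surjective_of_finrank_eq_finrank hfr).mp hinj
  obtain ⟨Ψ, hΨ⟩ := hsurj φ
  exact ⟨Ψ, fun y => by rw [← hΨ]; rfl⟩

/-- The rank-one map from a retraction. -/
abbrev f0 (R : L →ₗ[F] F) : L →ₗ[F] L := ro 1 R

theorem all_tr {X : Subgroup (V ≃ₗ[F] V)} (hX : HH L X) (hm : 2 ≤ finrank L V)
    (hall : ∀ {v : V} {Ψ : V →ₗ[L] L} (hv0 : v ≠ 0) (hΨ0 : Ψ ≠ 0) (hv : Ψ v = 0) (f : L →ₗ[F] L),
      rt hv f ∈ X) {φ : Module.Dual F V} {v : V} (hφ : φ v = 0) :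
    LinearEquiv.transvection hφ ∈ X := by
  obtain ⟨R, hR⟩ := exists_retr (F := F) (L := L)
  have hR1 : R 1 = 1 := by simpa using hR 1
  obtain ⟨Ψ, hΨ⟩ := exists_lift (V := V) hR1 φ
  by_cases hv0 : v = 0
  · have : LinearEquiv.transvection hφ = 1 := by
      ext y
      simp [LinearEquiv.transvection.apply, LinearMap.transvection.apply, hv0]
    rw [this]
    exact X.one_mem
  by_cases hΨ0 : Ψ = 0
  · have : LinearEquiv.transvection hφ = 1 := by
      ext y
      simp [LinearEquiv.transvection.apply, LinearMap.transvection.apply, hΨ, hΨ0]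
    rw [this]
    exact X.one_mem
  have htype0 : ∀ {v : V} {Ψ : V →ₗ[L] L} (hv0 : v ≠ 0) (hΨ0 : Ψ ≠ 0) (hv : Ψ v = 0),
      rt hv (f0 R) ∈ X := fun hv0 hΨ0 hv => hall hv0 hΨ0 hv _
  have hf0 : ∀ {v : V} {Ψ : V →ₗ[L] L} (hv : Ψ v = 0) (y : V),
      rt hv (f0 R) y = y + R (Ψ y) • v := by
    intro v Ψ hv y
    simp only [rt_apply, LinearMap.smulRight_apply, smul_assoc, one_smul]
  by_cases hΨv : Ψ v = 0
  · have : LinearEquiv.transvection hφ = rt hΨv (f0 R) := by
      ext y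
      rw [hf0, LinearEquiv.transvection.apply, hΨ]
    rw [this]
    exact htype0 hv0 hΨ0 hΨv
  · obtain ⟨w, hw⟩ := exists_not_mem_span (L := L) hm v
    let v2 := w - (Ψ w / Ψ v) • v
    have h2 : Ψ v2 = 0 := by
      simp only [v2, map_sub, map_smul, smul_eq_mul]
      field_simp
      simp
    have hv2 : v2 ∉ Submodule.span L {v} := by
      intro h
      apply hw
      have h3 : w = v2 + (Ψ w / Ψ v) • v := by simp [v2]
      rw [h3]
      exact Submodule.add_mem _ h (Submodule.smul_mem _ _ (Submodule.mem_span_singleton_self v))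
    have hv20 : v2 ≠ 0 := by
      intro h
      apply hv2
      rw [h]
      exact Submodule.zero_mem _
    obtain ⟨Ψ1, h1v, h1v2⟩ := exists_sep_pair hv2
    have hΨ10 : Ψ1 ≠ 0 := by
      rintro rfl
      simp at h1v2
    let A := rt h1v (f0 R)
    let B := rt h2 (f0 R)
    have hA : A ∈ X := htype0 hv0 hΨ10 h1v
    have hB : B ∈ X := htype0 hv20 hΨ0 h2
    have hAa : ∀ y, A y = y + R (Ψ1 y) • v := hf0 h1v
    have hBa : ∀ y, B y = y + R (Ψ y) • v2 := hf0 h2
    have hAi : ∀ y, A⁻¹ y = y - R (Ψ1 y) • v := by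
      intro y
      have : A⁻¹ = rt h1v (-(f0 R)) := rt_inv h1v _
      rw [this]
      simp [sub_eq_add_neg, smul_assoc]
    have hBi : ∀ y, B⁻¹ y = y - R (Ψ y) • v2 := by
      intro y
      have : B⁻¹ = rt h2 (-(f0 R)) := rt_inv h2 _
      rw [this]
      simp [sub_eq_add_neg, smul_assoc]
    have hvv : R (Ψ v) = 0 := by rw [← hΨ]; exact hφ
    have key : LinearEquiv.transvection hφ = A * B * A⁻¹ * B⁻¹ := by
      ext y
      rw [LinearEquiv.transvection.apply]
      simp only [LinearEquiv.mul_apply]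
      rw [hBi, hAi, hBa, hAa]
      simp only [map_sub, map_add, map_smul, smul_eq_mul, h2, h1v, h1v2, mul_zero, sub_zero, mul_one,
        add_zero, hvv, hR1, smul_zero, zero_smul, sub_zero, zero_add, hΨ y, one_smul]
      have e1 : ∀ a : F, R (Ψ (a • v2)) = 0 := by
        intro a
        rw [LinearMap.map_smul_of_tower, h2]
        simp
      have e2 : ∀ a : F, R (Ψ1 (a • v2)) = a := by
        intro a
        rw [LinearMap.map_smul_of_tower, h1v2, map_smul, hR1]
        simp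
      have e3 : ∀ a : F, R (Ψ1 (a • v)) = 0 := by
        intro a
        rw [LinearMap.map_smul_of_tower, h1v]
        simp
      have e4 : ∀ a : F, R (Ψ (a • v)) = 0 := by
        intro a
        rw [LinearMap.map_smul_of_tower, map_smul, hvv]
        simp
      simp only [e1, e2, e3, e4, sub_zero, add_zero]
      simp only [sub_smul]
      abel
    rw [key]
    exact X.mul_mem (X.mul_mem (X.mul_mem hA hB) (X.inv_mem hA)) (X.inv_mem hB)

end tr

end Cfsg.Agent.Lib.ExtC
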