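import Mathlib
import Cfsg.Prelude.Def_Transfer
import Cfsg.Agent.Lib.PResid
import Cfsg.Agent.Lib.Replacement

/-!
# Maximal subgroups with a normal subgroup of prime index

* `exists_hom_ker`: a normal subgroup of prime index is the kernel of a homomorphism onto `ZMod r`.
* `index_prime_of_isCoatom`: a normal maximal subgroup has prime index.
* `transfer_eq_of_TI`: if `M ∩ M^g ≤ H` for all `g ∉ M`, transfer of `f : M → A` (with `H ≤ ker f`)
  restricts to `f` on `M`.
* `normal_of_equiv_prime_index`: a subgroup isomorphic to a normal subgroup of prime index is normal.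
-/

set_option autoImplicit false

namespace Cfsg.Agent.Lib.ExtClosed

open Subgroup

/-- A normal subgroup of prime index is the kernel of a homomorphism to `ZMod r`. -/
theorem exists_hom_ker {X : Type*} [Group X] [Finite X] {K : Subgroup X} (hKn : K.Normal) {r : ℕ}
    [Fact r.Prime] (h : K.index = r) : ∃ f : X →* Multiplicative (ZMod r), f.ker = K := by
  have hcard : Nat.card (X ⧸ K) = r := by rw [← Subgroup.index_eq_card]; exact h
  have hcard2 : Nat.card (Multiplicative (ZMod r)) = r := by
    rw [Nat.card_congr Multiplicative.toAdd]; simp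
  let e : (X ⧸ K) ≃* Multiplicative (ZMod r) := mulEquivOfPrimeCardEq hcard hcard2
  refine ⟨e.toMonoidHom.comp (QuotientGroup.mk' K), ?_⟩
  ext x
  rw [MonoidHom.mem_ker]
  constructor
  · intro h1
    have h2 : QuotientGroup.mk' K x = 1 := by
      apply e.injective
      rw [map_one]
      exact h1
    exact (QuotientGroup.eq_one_iff x).1 h2
  · intro h1
    have h2 : QuotientGroup.mk' K x = 1 := (QuotientGroup.eq_one_iff x).2 h1
    show e (QuotientGroup.mk' K x) = 1
    rw [h2, map_one]

/-- A normal maximal subgroup of a finite group has prime index. -/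
theorem index_prime_of_isCoatom {X : Type*} [Group X] [Finite X] {K : Subgroup X} (hKn : K.Normal)
    (hK : IsCoatom K) : K.index.Prime := by
  have hnt : Nontrivial (X ⧸ K) := by
    rw [QuotientGroup.nontrivial_iff]
    exact hK.1
  have hne1 : Nat.card (X ⧸ K) ≠ 1 := by
    intro h1
    have := (Nat.card_eq_one_iff_unique.1 h1).1
    exact not_subsingleton _ this
  set ℓ := (Nat.card (X ⧸ K)).minFac with hℓ
  have hℓp : ℓ.Prime := Nat.minFac_prime hne1
  have : Fact ℓ.Prime := ⟨hℓp⟩
  obtain ⟨q, hq⟩ := exists_prime_orderOf_dvd_card' ℓ (Nat.minFac_dvd _)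
  have h1 : q ≠ 1 := by
    rintro rfl
    rw [orderOf_one] at hq
    exact hℓp.one_lt.ne hq
  have hcomap : K < (zpowers q).comap (QuotientGroup.mk' K) := by
    constructor
    · intro x hx
      rw [mem_comap]
      have : QuotientGroup.mk' K x = 1 := (QuotientGroup.eq_one_iff x).2 hx
      rw [this]
      exact one_mem _
    · intro hle
      obtain ⟨x, rfl⟩ := QuotientGroup.mk'_surjective K q
      apply h1
      have h2 : x ∈ (zpowers (QuotientGroup.mk' K x)).comap (QuotientGroup.mk' K) := by
        rw [mem_comap]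
        exact mem_zpowers _
      exact (QuotientGroup.eq_one_iff x).2 (hle h2)
  have htop := hK.2 _ hcomap
  have hz : zpowers q = ⊤ := by
    rw [eq_top_iff]
    intro y _
    obtain ⟨x, rfl⟩ := QuotientGroup.mk'_surjective K y
    have : x ∈ (zpowers q).comap (QuotientGroup.mk' K) := by rw [htop]; trivial
    exact this
  have hc : Nat.card (X ⧸ K) = ℓ := by
    rw [← hq, ← Nat.card_zpowers, hz, Subgroup.card_top]
  rw [Subgroup.index_eq_card, hc]
  exact hℓp

/-- Transfer for a trivial-intersection pair. -/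
theorem transfer_eq_of_TI {G : Type*} [Group G] [Finite G] {M H : Subgroup G} {A : Type*} [CommGroup A]
    (f : M →* A) (hf : ∀ x : M, (x : G) ∈ H → f x = 1)
    (hTI : ∀ g : G, g ∉ M → ∀ z ∈ M, g⁻¹ * z * g ∈ M → z ∈ H) (x : M) :
    f.transfer (x : G) = f x := by
  classical
  have : Fintype (Quotient (MulAction.orbitRel (zpowers (x : G)) (G ⧸ M))) := Fintype.ofFinite _
  rw [MonoidHom.transfer_eq_prod_quotient_orbitRel_zpowers_quot]
  let c₀ : G ⧸ M := QuotientGroup.mk 1
  let q₀ : Quotient (MulAction.orbitRel (zpowers (x : G)) (G ⧸ M)) := Quotient.mk _ c₀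
  have hfix : ∀ y ∈ zpowers (x : G), y • c₀ = c₀ := by
    intro y hy
    have hyM : y ∈ M := (zpowers_le (H := M)).2 x.2 hy
    apply QuotientGroup.eq.2
    simpa using hyM
  have hq₀ : q₀.out = c₀ := by
    have h1 : (Quotient.mk _ q₀.out : Quotient (MulAction.orbitRel (zpowers (x : G)) (G ⧸ M))) = q₀ :=
      Quotient.out_eq _
    have h2 : MulAction.orbitRel (zpowers (x : G)) (G ⧸ M) |>.r q₀.out c₀ := Quotient.exact h1
    obtain ⟨y, hy⟩ := h2
    rw [← hy]
    exact hfix y y.2
  rw [Finset.prod_eq_single q₀]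
  · have hper : Function.minimalPeriod ((x : G) • ·) q₀.out = 1 := by
      rw [Function.minimalPeriod_eq_one_iff_isFixedPt, hq₀]
      exact hfix _ (mem_zpowers _)
    have ht : q₀.out.out ∈ M := by
      have h1 : (q₀.out.out : G ⧸ M) = c₀ := by rw [QuotientGroup.out_eq', hq₀]
      have h2 := QuotientGroup.eq.1 h1
      simpa using h2
    have heq : (⟨q₀.out.out⁻¹ * (x : G) ^ Function.minimalPeriod ((x : G) • ·) q₀.out * q₀.out.out,
        QuotientGroup.out_conj_pow_minimalPeriod_mem M (x : G) q₀.out⟩ : M) =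
        (⟨q₀.out.out, ht⟩ : M)⁻¹ * x * (⟨q₀.out.out, ht⟩ : M) := by
      apply Subtype.ext
      simp only [hper, pow_one, coe_mul, coe_inv]
    rw [heq, map_mul, map_mul, map_inv, mul_comm (f _)⁻¹ (f x), mul_assoc, inv_mul_cancel, mul_one]
  · intro q _ hq
    apply hf
    have ht : q.out.out ∉ M := by
      intro hmem
      apply hq
      have h1 : q.out = c₀ := by
        rw [← QuotientGroup.out_eq' q.out]
        apply QuotientGroup.eq.2
        simpa using hmem
      rw [← Quotient.out_eq q, h1]
    have hmem := QuotientGroup.out_conj_pow_minimalPeriod_mem M (x : G) q.out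
    have hx : (x : G) ^ Function.minimalPeriod ((x : G) • ·) q.out ∈ M := M.pow_mem x.2 _
    refine hTI (q.out.out)⁻¹ (fun h => ht (by simpa using M.inv_mem h)) _ hmem ?_
    have : (q.out.out)⁻¹⁻¹ * ((q.out.out)⁻¹ * (x : G) ^ Function.minimalPeriod ((x : G) • ·) q.out * q.out.out) *
        (q.out.out)⁻¹ = (x : G) ^ Function.minimalPeriod ((x : G) • ·) q.out := by group
    rw [this]
    exact hx
  · intro h
    exact absurd (Finset.mem_univ _) h

/-- A subgroup isomorphic to a normal subgroup of prime index is normal. -/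
theorem normal_of_equiv_prime_index {X : Type*} [Group X] [Finite X] {K K' : Subgroup X} {r : ℕ}
    [hr : Fact r.Prime] (hKn : K.Normal) (hidx : K.index = r) (e : K ≃* K') : K'.Normal := by
  classical
  set E : Subgroup X := Cfsg.pResidual r X with hE
  have hEn : E.Normal := Cfsg.Agent.Lib.PResid.pResidual_normal r
  -- `r'`-elements lie in `K`
  have hcop : ∀ y : X, Nat.Coprime (orderOf y) r → y ∈ K := by
    intro y hy
    have h1 : orderOf (QuotientGroup.mk' K y) ∣ orderOf y := orderOf_map_dvd _ y
    have h2 : orderOf (QuotientGroup.mk' K y) ∣ r := by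
      have h3 := orderOf_dvd_natCard (QuotientGroup.mk' K y)
      rwa [← Subgroup.index_eq_card, hidx] at h3
    have h3 : orderOf (QuotientGroup.mk' K y) = 1 :=
      Nat.eq_one_of_dvd_coprimes hy h1 h2
    exact (QuotientGroup.eq_one_iff y).1 (orderOf_eq_one_iff.1 h3)
  have hEK : (Cfsg.pResidual r K).map K.subtype = E := by
    rw [Cfsg.Agent.Lib.PResid.map_pResidual_eq_closure, hE, Cfsg.pResidual]
    congr 1
    ext y
    exact ⟨fun h => h.2, fun h => ⟨hcop y h, h⟩⟩
  have hiK : E.index = (Cfsg.pResidual r K).index * r := by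
    rw [← hEK, Subgroup.index_map_subtype, hidx]
  have hi : (Cfsg.pResidual r K').index = (Cfsg.pResidual r K).index := by
    rw [← Cfsg.Agent.Lib.PResid.map_pResidual_of_surjective (e : K →* K') e.surjective r]
    exact Subgroup.index_map_equiv _ e
  have hpos : 0 < (Cfsg.pResidual r K).index := Nat.pos_of_ne_zero Subgroup.FiniteIndex.index_ne_zero
  have hK'idx : K'.index = r := by
    have h1 : Nat.card K' = Nat.card K := Nat.card_congr e.symm.toEquiv
    have h2 := Subgroup.card_mul_index K
    have h3 := Subgroup.card_mul_index K'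
    rw [h1, ← h2] at h3
    rw [← hidx]
    exact Nat.eq_of_mul_eq_mul_left Nat.card_pos h3
  have hne : K' ⊔ E ≠ ⊤ := by
    intro htop
    have h1 : E.relIndex K' = E.index := by
      rw [← Subgroup.relIndex_sup_right K' E, htop, Subgroup.relIndex_top_right]
    have hD : (Cfsg.pResidual r K').map K'.subtype ≤ E ⊓ K' := by
      refine le_inf ?_ (map_subtype_le _)
      rw [Cfsg.Agent.Lib.PResid.map_pResidual_eq_closure, hE, Cfsg.pResidual]
      exact closure_mono (fun y hy => hy.2)
    have h2 : (E ⊓ K').index ∣ ((Cfsg.pResidual r K').map K'.subtype).index :=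
      Subgroup.index_dvd_of_le hD
    rw [Subgroup.index_map_subtype, hi] at h2
    have h3 : (E ⊓ K').index = E.relIndex K' * K'.index := by
      rw [← Subgroup.inf_relIndex_right, Subgroup.relIndex_mul_index inf_le_right]
    rw [h3, h1, hiK, hK'idx] at h2
    have h4 : (Cfsg.pResidual r K).index * r ∣ (Cfsg.pResidual r K).index := by
      exact Nat.dvd_of_mul_dvd_mul_right hr.out.pos h2
    have h5 : r ∣ 1 := by
      have h6 : (Cfsg.pResidual r K).index * r ∣ (Cfsg.pResidual r K).index * 1 := by
        rwa [mul_one]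
      exact Nat.dvd_of_mul_dvd_mul_left hpos h6
    exact hr.out.one_lt.ne' (Nat.dvd_one.1 h5)
  have hEK' : E ≤ K' := by
    have h1 : (K' ⊔ E).index ∣ K'.index := Subgroup.index_dvd_of_le le_sup_left
    rw [hK'idx] at h1
    rcases (Nat.dvd_prime hr.out).1 h1 with h2 | h2
    · exact absurd (Subgroup.index_eq_one.1 h2) hne
    · have h3 : K' ⊔ E = K' := by
        symm
        apply Subgroup.eq_of_le_of_card_ge le_sup_left
        have h4 := Subgroup.card_mul_index (K' ⊔ E)
        have h5 := Subgroup.card_mul_index K'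
        rw [h2] at h4
        rw [hK'idx, ← h4] at h5
        exact (Nat.eq_of_mul_eq_mul_right hr.out.pos h5).ge
      rw [← h3]
      exact le_sup_right
  have hEn' : E.Normal := hEn
  let π : X →* X ⧸ E := QuotientGroup.mk' E
  have hπ : Function.Surjective π := QuotientGroup.mk'_surjective E
  have hP : IsPGroup r (X ⧸ E) := Cfsg.Agent.Lib.PResid.isPGroup_quotient_pResidual r
  have hk : (K'.map π).index = r := by
    rw [Subgroup.index_map, QuotientGroup.ker_mk', sup_eq_left.2 hEK', hK'idx,
      MonoidHom.range_eq_top_of_surjective _ hπ, Subgroup.index_top, mul_one]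
  have hnt : Nat.card (X ⧸ E) ≠ 1 := by
    intro h1
    have h2 : (K'.map π).index ∣ Nat.card (X ⧸ E) := Subgroup.index_dvd_card _
    rw [hk, h1] at h2
    exact hr.out.one_lt.ne' (Nat.dvd_one.1 h2)
  have hminfac : (K'.map π).index = (Nat.card (X ⧸ E)).minFac := by
    rw [hk]
    obtain ⟨n, hn⟩ := IsPGroup.iff_card.1 hP
    rw [hn]
    have hn0 : n ≠ 0 := by
      rintro rfl
      apply hnt
      rw [hn, pow_zero]
    rw [Nat.Prime.pow_minFac hr.out hn0]
  have hnorm : (K'.map π).Normal := Subgroup.normal_of_index_eq_minFac_card hminfac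
  have hcomap : (K'.map π).comap π = K' := by
    rw [Subgroup.comap_map_eq, QuotientGroup.ker_mk']
    exact sup_eq_left.2 hEK'
  rw [← hcomap]
  exact hnorm.comap π

/-- A subgroup of prime index is maximal. -/
theorem isCoatom_of_index_prime {X : Type*} [Group X] [Finite X] {K : Subgroup X} (h : K.index.Prime) :
    IsCoatom K := by
  constructor
  · rintro rfl
    rw [Subgroup.index_top] at h
    exact Nat.not_prime_one h
  · intro L hL
    have h1 : L.index ∣ K.index := Subgroup.index_dvd_of_le hL.le
    rcases (Nat.dvd_prime h).1 h1 with h2 | h2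
    · exact Subgroup.index_eq_one.1 h2
    · exfalso
      apply hL.ne
      apply Subgroup.eq_of_le_of_card_ge hL.le
      have h4 := Subgroup.card_mul_index L
      have h5 := Subgroup.card_mul_index K
      rw [h2] at h4
      rw [← h4] at h5
      exact (Nat.eq_of_mul_eq_mul_right h.pos h5).ge

/-- A maximal subgroup `H` of `M` and an element of `M` outside `H` generate `M`. -/
theorem le_sup_zpowers {G : Type*} [Group G] {H M : Subgroup G} (hHM : H ≤ M)
    (hco : IsCoatom (H.subgroupOf M)) {z : G} (hz : z ∈ M) (hzH : z ∉ H) : M ≤ H ⊔ zpowers z := by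
  have hlt : H.subgroupOf M < (H ⊔ zpowers z).subgroupOf M := by
    constructor
    · intro x hx
      rw [mem_subgroupOf] at hx ⊢
      exact mem_sup_left hx
    · intro hle
      have h1 : (⟨z, hz⟩ : M) ∈ (H ⊔ zpowers z).subgroupOf M := by
        rw [mem_subgroupOf]
        exact mem_sup_right (mem_zpowers z)
      have h2 := hle h1
      rw [mem_subgroupOf] at h2
      exact hzH h2
  have htop := hco.2 _ hlt
  intro x hx
  have : (⟨x, hx⟩ : M) ∈ (H ⊔ zpowers z).subgroupOf M := by rw [htop]; trivial
  rwa [mem_subgroupOf] at this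

/-- The join of `H` and a conjugate normalized by an element outside `H`. -/
theorem normal_sup_conj {G : Type*} [Group G] [Finite G] {H M : Subgroup G} (hHM : H ≤ M)
    (hMN : M ≤ normalizer (H : Set G)) (hco : IsCoatom (H.subgroupOf M)) (hmaxM : IsCoatom M) {g z : G}
    (hz : z ∈ M) (hgz : g⁻¹ * z * g ∈ M) (hzH : z ∉ H)
    (hJ : ¬ H ⊔ H.map (MulAut.conj g).toMonoidHom ≤ M) :
    (H ⊔ H.map (MulAut.conj g).toMonoidHom).Normal := by
  set J : Subgroup G := H ⊔ H.map (MulAut.conj g).toMonoidHom with hJdef
  have hzJ : z ∈ normalizer (J : Set G) := by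
    apply Cfsg.Agent.Lib.Replacement.mem_normalizer_of_forall
    have hle : J ≤ J.comap (MulAut.conj z).toMonoidHom := by
      refine sup_le ?_ ?_
      · intro x hx
        exact (le_sup_left : H ≤ J) ((mem_normalizer_iff.1 (hMN hz) x).1 hx)
      · rintro _ ⟨h, hh, rfl⟩
        have h1 := (mem_normalizer_iff.1 (hMN hgz) h).1 hh
        refine (le_sup_right : H.map (MulAut.conj g).toMonoidHom ≤ J) ⟨_, h1, ?_⟩
        simp [MulAut.conj_apply]
        group
    intro x hx
    exact hle hx
  have hMJ : M ≤ normalizer (J : Set G) := by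
    refine (le_sup_zpowers hHM hco hz hzH).trans (sup_le ?_ ((zpowers_le).2 hzJ))
    exact (le_sup_left : H ≤ J).trans le_normalizer
  have hsup : M ⊔ J = ⊤ := by
    apply hmaxM.2
    refine lt_of_le_of_ne le_sup_left fun h => hJ ?_
    rw [h]
    exact le_sup_right
  rw [← normalizer_eq_top_iff, eq_top_iff, ← hsup]
  exact sup_le hMJ le_normalizer

end Cfsg.Agent.Lib.ExtClosed
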