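import Mathlib
import Cfsg.Agent.Lib.ExtA
import Cfsg.Agent.Lib.ExtB
import Cfsg.Agent.Lib.ExtC

set_option autoImplicit false
set_option linter.unusedSectionVars false
set_option linter.unusedSimpArgs false
set_option linter.unusedVariables false
set_option linter.style.haveILetI false

namespace Cfsg.Agent.Lib.ExtD

open Module Cfsg.Agent.Lib.ExtA Cfsg.Agent.Lib.ExtB Cfsg.Agent.Lib.ExtC

section abstract

variable {F L : Type*} [Field F] [Field L] [Algebra F L] [Finite F] [Module.Finite F L]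

theorem exists_ker_ne (hr : (finrank F L).Prime) (π : L →ₗ[F] F) : ∃ a : L, a ≠ 0 ∧ π a = 0 := by
  by_cases h1 : π 1 = 0
  · exact ⟨1, one_ne_zero, h1⟩
  · obtain ⟨θ, hθ⟩ := exists_not_alg (F := F) (L := L) hr
    refine ⟨θ - (π θ / π 1) • 1, ?_, ?_⟩
    · intro h
      apply hθ (π θ / π 1)
      rw [Algebra.algebraMap_eq_smul_one]
      exact (sub_eq_zero.mp h).symm
    · simp only [map_sub, map_smul, smul_eq_mul]
      field_simp
      simp

theorem exists_norm_ne {f : L →ₗ[F] L} (hr : (finrank F L).Prime) (hf : f ≠ 0) {t : L} (ht : t ≠ 0) :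
    ∃ z : L, Algebra.norm F z = 1 ∧ f (z * t) ≠ 0 := by
  by_contra h
  push Not at h
  apply hf
  have h1 : f ∘ₗ (LinearMap.mulRight F t) = 0 := by
    have h2 : Submodule.span F {z : L | Algebra.norm F z = 1} ≤
        LinearMap.ker (f ∘ₗ (LinearMap.mulRight F t)) := by
      rw [Submodule.span_le]
      intro z hz
      exact h z hz
    rw [span_norm_one hr, top_le_iff, LinearMap.ker_eq_top] at h2
    exact h2
  ext x
  have h2 := LinearMap.congr_fun h1 (x * t⁻¹)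
  simpa [ht] using h2

theorem rank_one_of_T (hr : (finrank F L).Prime) (h3 : 3 ≤ finrank F L)
    (S : AddSubgroup (L →ₗ[F] L))
    (hS : ∀ f ∈ S, ∀ s s' : L, s ≠ 0 → s' ≠ 0 → Algebra.norm F s = Algebra.norm F s' →
      (m F s) ∘ₗ f ∘ₗ (m F s') ∈ S)
    (hm : ∀ κ : L, m F κ ∈ S) {p p' : L} {π π' : L →ₗ[F] F} (hp : p ≠ 0) (hπ : π ≠ 0)
    (hp' : p' ≠ 0) (hπ' : π' ≠ 0)
    (hT : ∀ f ∈ S, (LinearMap.id + ro p π) ∘ₗ f ∘ₗ (LinearMap.id - ro p' π') ∈ S) :
    ∃ (p2 : L) (π2 : L →ₗ[F] F), p2 ≠ 0 ∧ π2 ≠ 0 ∧ ro p2 π2 ∈ S := by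
  obtain ⟨a, ha, hπa⟩ := exists_ker_ne hr π'
  obtain ⟨x0, hx0⟩ : ∃ x, π x ≠ 0 := by
    by_contra h
    push Not at h
    exact hπ (LinearMap.ext h)
  let lam := x0 / a
  have hlam : π (lam * a) ≠ 0 := by
    have : lam * a = x0 := by simp only [lam]; field_simp
    rwa [this]
  let f1 : L →ₗ[F] L := (LinearMap.id + ro p π) ∘ₗ (m F lam) ∘ₗ (LinearMap.id - ro p' π') - m F lam
  have hf1S : f1 ∈ S := S.sub_mem (hT _ (hm lam)) (hm lam)
  have hf1 : ∀ x, f1 x = (- π' x) • (lam * p') + π (lam * (x - π' x • p')) • p := by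
    intro x
    simp only [f1, LinearMap.sub_apply, LinearMap.comp_apply, LinearMap.add_apply, LinearMap.id_apply,
      LinearMap.smulRight_apply, m_apply, mul_sub, mul_smul_comm, neg_smul]
    abel
  have hf1a : f1 a = π (lam * a) • p := by
    rw [hf1, hπa]
    simp
  have hf1ne : f1 ≠ 0 := by
    intro h
    rw [h] at hf1a
    have : π (lam * a) • p = 0 := hf1a.symm
    rcases smul_eq_zero.mp this with h4 | h4
    · exact hlam h4
    · exact hp h4
  -- a functional vanishing on the range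
  let U : Submodule F L := Submodule.span F {p, lam * p'}
  have hU : finrank F U ≤ 2 := by
    classical
    have := finrank_span_finset_le_card (R := F) (M := L) (({p, lam * p'} : Finset L))
    have h2 : (({p, lam * p'} : Finset L) : Set L) = {p, lam * p'} := by simp
    rw [h2] at this
    exact this.trans Finset.card_le_two
  have hUtop : U < ⊤ := by
    apply lt_top_iff_ne_top.mpr
    intro h
    rw [h, finrank_top] at hU
    omega
  obtain ⟨π1, hπ1, hπ1U⟩ := Submodule.exists_le_ker_of_lt_top U hUtop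
  have hrange : ∀ x, π1 (f1 x) = 0 := by
    intro x
    rw [hf1]
    have h1 : (- π' x) • (lam * p') + π (lam * (x - π' x • p')) • p ∈ U :=
      U.add_mem (U.smul_mem _ (Submodule.subset_span (by simp)))
        (U.smul_mem _ (Submodule.subset_span (by simp)))
    exact hπ1U h1
  obtain ⟨s, hs⟩ := nondeg hπ π1
  have hs0 : s ≠ 0 := by
    rintro rfl
    apply hπ1
    rw [hs]
    ext x
    simp
  obtain ⟨z, hz, hzf⟩ := exists_norm_ne hr hf1ne (mul_ne_zero hs0 hp')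
  have hz0 : z ≠ 0 := by
    rintro rfl
    simp at hzf
  let s' := s * z
  have hs'0 : s' ≠ 0 := mul_ne_zero hs0 hz0
  have hN : Algebra.norm F s = Algebra.norm F s' := by
    simp only [s', map_mul, hz, mul_one]
  let f2 : L →ₗ[F] L := (m F s) ∘ₗ f1 ∘ₗ (m F s')
  have hf2S : f2 ∈ S := hS f1 hf1S s s' hs0 hs'0 hN
  have hf2π : ∀ x, π (f2 x) = 0 := by
    intro x
    have h1 := hrange (s' * x)
    rw [hs] at h1
    exact h1
  let f3 : L →ₗ[F] L := (LinearMap.id + ro p π) ∘ₗ f2 ∘ₗ (LinearMap.id - ro p' π') - f2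
  have hf3S : f3 ∈ S := S.sub_mem (hT _ hf2S) hf2S
  have hf3 : f3 = - ro (f2 p') π' := by
    ext x
    simp only [f3, LinearMap.sub_apply, LinearMap.comp_apply, LinearMap.add_apply, LinearMap.id_apply,
      LinearMap.smulRight_apply, LinearMap.neg_apply, hf2π, zero_smul, add_zero, map_sub, map_smul]
    abel
  refine ⟨f2 p', π', ?_, hπ', ?_⟩
  · simp only [f2, LinearMap.comp_apply, m_apply]
    apply mul_ne_zero hs0
    have : s' * p' = z * (s * p') := by simp only [s']; ring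
    rw [this]
    exact hzf
  · have := S.neg_mem hf3S
    rw [hf3, neg_neg] at this
    exact this

end abstract

section concrete

variable {F L V : Type*} [Field F] [Field L] [Algebra F L]
  [AddCommGroup V] [Module L V] [Module F V] [IsScalarTower F L V] [Finite F] [Module.Finite F L]
  [Module.Finite L V] [Module.Finite F V]

theorem ker_eq_span (hm : finrank L V = 2) {b y : V} {ψ : V →ₗ[L] L} (hb0 : b ≠ 0) (hψ0 : ψ ≠ 0)
    (hb : ψ b = 0) (hy : ψ y = 0) : ∃ d : L, y = d • b := by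
  have hrange : LinearMap.range ψ = ⊤ := by
    rw [LinearMap.range_eq_top]
    intro a
    obtain ⟨y, hy⟩ : ∃ y, ψ y ≠ 0 := by
      by_contra h
      push Not at h
      exact hψ0 (LinearMap.ext h)
    exact ⟨(a / ψ y) • y, by simp only [map_smul, smul_eq_mul]; field_simp⟩
  have h1 := LinearMap.finrank_range_add_finrank_ker ψ
  rw [hrange, finrank_top, finrank_self, hm] at h1
  have h2 : finrank L (LinearMap.ker ψ) = 1 := by omega
  have hb' : (⟨b, hb⟩ : LinearMap.ker ψ) ≠ 0 := by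
    intro h
    exact hb0 (congrArg Subtype.val h)
  obtain ⟨d, hd⟩ := (finrank_eq_one_iff_of_nonzero' _ hb').mp h2 ⟨y, hy⟩
  exact ⟨d, (congrArg Subtype.val hd).symm⟩

theorem conj_u_apply {u : V ≃ₗ[F] V} {b : V} {ψ : V →ₗ[L] L} (hb : ψ b = 0) (f : L →ₗ[F] L)
    {p : L} {π : L →ₗ[F] F} (hu : ∀ a : L, u (a • b) = (a + π a • p) • b) (y : V) :
    (u * rt hb f * u⁻¹) y = y + (f (ψ (u⁻¹ y)) + π (f (ψ (u⁻¹ y))) • p) • b := by
  simp only [LinearEquiv.mul_apply, rt_apply, map_add, inv_app, hu]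

theorem rank_one_of_three (hm3 : 3 ≤ finrank L V) {X : Subgroup (V ≃ₗ[F] V)} (hX : HH L X) {b : V}
    {u : V ≃ₗ[F] V} (huX : u ∈ X) {p : L} {π : L →ₗ[F] F} {z' : V}
    (hu1 : ∀ a : L, u (a • b) = (a + π a • p) • b) (hu2 : ∀ y, u⁻¹ y = y - (u y - y))
    (hu3 : ∀ y, ∃ (c : F) (d : L), u y - y = c • z' + d • b) :
    ∃ (ψ : V →ₗ[L] L) (hb : ψ b = 0), ψ ≠ 0 ∧ rt hb (ro p π) ∈ X := by
  obtain ⟨y0, hy0⟩ := exists_not_mem_span_pair hm3 b z'
  obtain ⟨ψ, h1, h2⟩ := exists_sep hy0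
  have hb : ψ b = 0 := h2 b (Submodule.subset_span (by simp))
  have hz : ψ z' = 0 := h2 z' (Submodule.subset_span (by simp))
  refine ⟨ψ, hb, ?_, ?_⟩
  · rintro rfl
    simp at h1
  have hψu : ∀ y, ψ (u⁻¹ y) = ψ y := by
    intro y
    rw [hu2]
    obtain ⟨c, d, hcd⟩ := hu3 y
    rw [map_sub, hcd, map_add, LinearMap.map_smul_of_tower, hz, map_smul, hb]
    simp
  have h3 : u * rt hb (m F 1) * u⁻¹ = rt hb (m F 1 + ro p π) := by
    ext y
    rw [conj_u_apply hb _ hu1, hψu]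
    simp
  have h4 : rt hb (ro p π) = (u * rt hb (m F 1) * u⁻¹) * (rt hb (m F 1))⁻¹ := by
    rw [h3, rt_inv, rt_mul]
    congr 1
    abel
  rw [h4]
  have h5 : rt hb (m F 1) ∈ X := rt_m_mem hX hb 1
  exact X.mul_mem (X.mul_mem (X.mul_mem huX h5) (X.inv_mem huX)) (X.inv_mem h5)

theorem rank_one_of_two (hr : (finrank F L).Prime) (h3 : 3 ≤ finrank F L) (hm2 : finrank L V = 2)
    {X : Subgroup (V ≃ₗ[F] V)} (hX : HH L X) {b : V} (hb0 : b ≠ 0)
    {u : V ≃ₗ[F] V} (huX : u ∈ X) {p : L} (hp : p ≠ 0) {π : L →ₗ[F] F} (hπ : π ≠ 0) {z' : V}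
    (hz' : z' ∉ Submodule.span L {b})
    (hu1 : ∀ a : L, u (a • b) = (a + π a • p) • b) (hu2 : ∀ y, u⁻¹ y = y - (u y - y))
    (hu3 : ∀ y, ∃ (c : F) (d : L), u y - y = c • z' + d • b) (hu4 : ∃ y1, u y1 - y1 = z') :
    ∃ (ψ : V →ₗ[L] L) (hb : ψ b = 0), ψ ≠ 0 ∧ ∃ (p2 : L) (π2 : L →ₗ[F] F), p2 ≠ 0 ∧ π2 ≠ 0 ∧
      rt hb (ro p2 π2) ∈ X := by
  obtain ⟨z1, hz1⟩ := exists_not_mem_span (L := L) (by omega) b
  obtain ⟨ψ, hb, hψz1⟩ := exists_sep_pair hz1
  have hψ0 : ψ ≠ 0 := by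
    rintro rfl
    simp at hψz1
  refine ⟨ψ, hb, hψ0, ?_⟩
  obtain ⟨R, hR⟩ := exists_retr (F := F) (L := L)
  have hR1 : R 1 = 1 := by simpa using hR 1
  let ρ0 : L →ₗ[F] L :=
    { toFun := fun a => ψ (u (a • z1) - a • z1)
      map_add' := by
        intro a a'
        simp only [add_smul, map_add, map_sub]
        abel
      map_smul' := by
        intro c a
        simp only [smul_assoc, map_smul, map_sub, LinearMap.map_smul_of_tower, RingHom.id_apply,
          smul_sub] }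
  have hρ0 : ∀ a, ρ0 a = ψ (u (a • z1) - a • z1) := fun a => rfl
  let p' := ψ z'
  have hp' : p' ≠ 0 := by
    intro h
    obtain ⟨d, hd⟩ := ker_eq_span hm2 hb0 hψ0 hb h
    apply hz'
    rw [hd]
    exact Submodule.smul_mem _ _ (Submodule.mem_span_singleton_self b)
  let π' : L →ₗ[F] F := R ∘ₗ (LinearMap.mulRight F p'⁻¹) ∘ₗ ρ0
  have hρ0' : ∀ a, ρ0 a = π' a • p' := by
    intro a
    obtain ⟨c, d, hcd⟩ := hu3 (a • z1)
    have h1 : ρ0 a = c • p' := by
      rw [hρ0, hcd, map_add, LinearMap.map_smul_of_tower, map_smul, hb]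
      simp [p']
    have h2 : π' a = c := by
      simp only [π', LinearMap.comp_apply, LinearMap.mulRight_apply]
      rw [h1, smul_mul_assoc, mul_inv_cancel₀ hp', map_smul, hR1]
      simp
    rw [h2, h1]
  have hψu : ∀ y, ψ (u y - y) = ρ0 (ψ y) := by
    intro y
    have h1 : ψ (y - ψ y • z1) = 0 := by simp [hψz1]
    obtain ⟨d, hd⟩ := ker_eq_span hm2 hb0 hψ0 hb h1
    have h2 : y = ψ y • z1 + d • b := by rw [← hd]; abel
    have h3 : u y - y = (u (ψ y • z1) - ψ y • z1) + (u (d • b) - d • b) := by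
      conv_lhs => rw [h2]
      rw [map_add]
      abel
    rw [h3, map_add, hρ0, hu1]
    simp [hb]
  have hπ' : π' ≠ 0 := by
    intro h
    obtain ⟨y1, hy1⟩ := hu4
    have h1 := hψu y1
    rw [hy1, hρ0'] at h1
    have h2 : π' (ψ y1) = 0 := LinearMap.congr_fun h _
    rw [h2, zero_smul] at h1
    exact hp' h1
  have hT : ∀ f ∈ SS X hb, (LinearMap.id + ro p π) ∘ₗ f ∘ₗ (LinearMap.id - ro p' π') ∈ SS X hb := by
    intro f hf
    have h5 : u * rt hb f * u⁻¹ = rt hb ((LinearMap.id + ro p π) ∘ₗ f ∘ₗ (LinearMap.id - ro p' π')) := by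
      ext y
      rw [conj_u_apply hb _ hu1]
      have h6 : ψ (u⁻¹ y) = ψ y - π' (ψ y) • p' := by
        rw [hu2, map_sub, hψu, hρ0']
      rw [h6]
      simp
    rw [mem_SS, ← h5]
    exact X.mul_mem (X.mul_mem huX hf) (X.inv_mem huX)
  exact rank_one_of_T hr h3 (SS X hb)
    (fun f hf s s' hs hs' hN => SS_closed hX hb0 hψ0 hb hf hs hs' hN)
    (fun κ => rt_m_mem hX hb κ) hp hπ hp' hπ' hT

/-- The case covered by the maximal intersection argument. -/
theorem rank_one_main (hr : (finrank F L).Prime) (hm : 2 ≤ finrank L V)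
    (hcase : 3 ≤ finrank L V ∨ 3 ≤ finrank F L) {X : Subgroup (V ≃ₗ[F] V)} (hX : HH L X)
    {x : V ≃ₗ[F] V} (hxX : x ∈ X) (hS : ¬ Semi (L := L) x) :
    ∃ (b : V) (ψ : V →ₗ[L] L) (hb : ψ b = 0), b ≠ 0 ∧ ψ ≠ 0 ∧
      ∃ (p2 : L) (π2 : L →ₗ[F] F), p2 ≠ 0 ∧ π2 ≠ 0 ∧ rt hb (ro p2 π2) ∈ X := by
  have : Nontrivial V := Module.nontrivial_of_finrank_pos (R := L) (by omega)
  obtain ⟨b, hb0⟩ := exists_ne (0 : V)
  obtain ⟨g, hg⟩ := exists_maxG hX hm hxX hS hb0
  obtain ⟨u, huX, p, hp, π, hπ, z', hz', hu1, hu2, hu3, hu4⟩ := exists_u hr hX hb0 hg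
  by_cases hm3 : 3 ≤ finrank L V
  · obtain ⟨ψ, hb, hψ, h⟩ := rank_one_of_three hm3 hX huX hu1 hu2 hu3
    exact ⟨b, ψ, hb, hb0, hψ, p, π, hp, hπ, h⟩
  · have h3 : 3 ≤ finrank F L := hcase.resolve_left hm3
    have hm2 : finrank L V = 2 := by omega
    obtain ⟨ψ, hb, hψ, h⟩ := rank_one_of_two hr h3 hm2 hX hb0 huX hp hπ hz' hu1 hu2 hu3 hu4
    exact ⟨b, ψ, hb, hb0, hψ, h⟩

end concrete

end Cfsg.Agent.Lib.ExtD
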