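import Mathlib
import Cfsg.Agent.Lib.ExtA
import Cfsg.Agent.Lib.ExtB
import Cfsg.Agent.Lib.ExtC
import Cfsg.Agent.Lib.ExtD

set_option autoImplicit false
set_option linter.unusedSectionVars false
set_option linter.unusedSimpArgs false
set_option linter.unusedVariables false
set_option linter.style.haveILetI false

namespace Cfsg.Agent.Lib.ExtE

open Module Cfsg.Agent.Lib.ExtA Cfsg.Agent.Lib.ExtB Cfsg.Agent.Lib.ExtC Cfsg.Agent.Lib.ExtD

section coord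

variable {F L : Type*} [Field F] [Field L] [Algebra F L] [Module.Finite F L]

theorem exists_coord (hr2 : finrank F L = 2) {θ : L} (hθ : ∀ c : F, algebraMap F L c ≠ θ) :
    ∃ R T : L →ₗ[F] F, R 1 = 1 ∧ T 1 = 0 ∧ R θ = 0 ∧ T θ = 1 ∧ ∀ a : L, a = R a • 1 + T a • θ := by
  have hli : LinearIndependent F ![(1 : L), θ] := by
    rw [LinearIndependent.pair_iff]
    intro s t h
    have ht : t = 0 := by
      by_contra ht
      apply hθ (-(s / t))
      rw [Algebra.algebraMap_eq_smul_one]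
      have h1 : t • θ = -(s • (1 : L)) := by
        rw [eq_neg_iff_add_eq_zero, add_comm]
        exact h
      calc (-(s / t)) • (1 : L) = t⁻¹ • (-(s • (1 : L))) := by
            rw [smul_neg, neg_smul, smul_smul]
            congr 2
            field_simp
        _ = θ := by
            rw [← h1, smul_smul, inv_mul_cancel₀ ht, one_smul]
    subst ht
    refine ⟨?_, rfl⟩
    simpa using h
  let B := basisOfLinearIndependentOfCardEqFinrank hli (by simp [hr2])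
  have hB : ∀ i, B i = ![(1 : L), θ] i := fun i => by
    simp [B, coe_basisOfLinearIndependentOfCardEqFinrank]
  have hB0 : B 0 = 1 := by simpa using hB 0
  have hB1 : B 1 = θ := by simpa using hB 1
  refine ⟨B.coord 0, B.coord 1, ?_, ?_, ?_, ?_, ?_⟩
  · rw [← hB0]; simp [Module.Basis.coord_apply]
  · rw [← hB0]; simp [Module.Basis.coord_apply]
  · rw [← hB1]; simp [Module.Basis.coord_apply]
  · rw [← hB1]; simp [Module.Basis.coord_apply]
  · intro a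
    have h := (B.sum_repr a).symm
    rw [Fin.sum_univ_two, hB0, hB1] at h
    exact h

end coord

section star

variable {F L V : Type*} [Field F] [Field L] [Algebra F L]
  [AddCommGroup V] [Module L V] [Module F V] [IsScalarTower F L V] [Finite F] [Module.Finite F L]
  [Module.Finite L V] [Module.Finite F V]

theorem star_of_no_rank_one (hr2 : finrank F L = 2) {θ : L} (hθ : ∀ c : F, algebraMap F L c ≠ θ)
    {X : Subgroup (V ≃ₗ[F] V)} (hX : HH L X) {v : V} {ψ : V →ₗ[L] L} (hb : ψ v = 0)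
    (hno : ¬ ∃ (p2 : L) (π2 : L →ₗ[F] F), p2 ≠ 0 ∧ π2 ≠ 0 ∧ rt hb (ro p2 π2) ∈ X)
    {f : L →ₗ[F] L} (hf : rt hb f ∈ X) : ∃ κ : L, f = m F κ := by
  obtain ⟨R, T, hR1, hT1, hRθ, hTθ, hdec⟩ := exists_coord hr2 hθ
  refine ⟨f 1, ?_⟩
  by_contra hne
  apply hno
  have h1 : f - m F (f 1) ∈ SS X hb := (SS X hb).sub_mem hf (rt_m_mem hX hb _)
  set f' := f - m F (f 1) with hf'
  have hf'1 : f' 1 = 0 := by simp [hf']
  have hf'ne : f' ≠ 0 := fun h => hne (sub_eq_zero.mp h)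
  have hf'a : ∀ a, f' a = T a • f' θ := by
    intro a
    conv_lhs => rw [hdec a]
    simp [hf'1]
  have hf'θ : f' θ ≠ 0 := by
    intro h
    apply hf'ne
    ext a
    simp [hf'a a, h]
  refine ⟨f' θ, T, hf'θ, ?_, ?_⟩
  · rintro rfl
    simp at hTθ
  · have : ro (f' θ) T = f' := by
      ext a
      simp [hf'a a]
    rw [this]
    exact h1

theorem rad_form (hm2 : finrank L V = 2) {v : V} {ψ : V →ₗ[L] L} (hv : v ≠ 0) (hψ0 : ψ ≠ 0)
    (hb : ψ v = 0) (g : V ≃ₗ[F] V) (h1 : ∀ a : L, g (a • v) = a • v)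
    (h2 : ∀ y, ∃ d : L, g y - y = d • v) : ∃ f : L →ₗ[F] L, g = rt hb f := by
  obtain ⟨z, β0, hβ, -, hz⟩ := exists_frame hv hψ0 hb
  let f : L →ₗ[F] L :=
    { toFun := fun a => β0 (g (a • z) - a • z)
      map_add' := by
        intro a a'
        simp only [add_smul, map_add, map_sub]
        abel
      map_smul' := by
        intro c a
        simp only [smul_assoc, map_smul, map_sub, LinearMap.map_smul_of_tower, RingHom.id_apply,
          smul_sub] }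
  have hfa : ∀ a, f a = β0 (g (a • z) - a • z) := fun a => rfl
  refine ⟨f, ?_⟩
  ext y
  rw [rt_apply, hfa]
  have h3 : ψ (y - ψ y • z) = 0 := by simp [hz]
  obtain ⟨d, hd⟩ := ker_eq_span hm2 hv hψ0 hb h3
  have h4 : y = ψ y • z + d • v := by rw [← hd]; abel
  obtain ⟨d', hd'⟩ := h2 (ψ y • z)
  rw [hd']
  simp only [map_smul, hβ, smul_eq_mul, mul_one]
  rw [← hd']
  conv_lhs => rw [h4]
  rw [map_add, h1]
  conv_rhs => rw [h4]
  simp only [map_add, map_smul, hb, hz, smul_eq_mul, mul_zero, add_zero, mul_one]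
  abel

end star

/-- Span-type membership for the `F`-form. -/
def InW (F : Type*) {V : Type*} [Field F] [AddCommGroup V] [Module F V] (w1 w2 y : V) : Prop :=
  ∃ α β : F, y = α • w1 + β • w2

/-- The frame. -/
structure Fr {F L V : Type*} [Field F] [Field L] [Algebra F L]
    [AddCommGroup V] [Module L V] [Module F V] [IsScalarTower F L V]
    (x : V ≃ₗ[F] V) (v : V) (θ : L) (ψ Ψ1 Ψ2 : V →ₗ[L] L) (R T : L →ₗ[F] F) (w1 w2 : V) : Prop where
  hv : v ≠ 0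
  hψ : ψ v = 0
  hψ0 : ψ ≠ 0
  h11 : Ψ1 w1 = 1
  h12 : Ψ1 w2 = 0
  h21 : Ψ2 w1 = 0
  h22 : Ψ2 w2 = 1
  hR1 : R 1 = 1
  hT1 : T 1 = 0
  hRθ : R θ = 0
  hTθ : T θ = 1
  hdec : ∀ a : L, a = R a • 1 + T a • θ
  hxa : ∀ a : L, x (a • v) = R a • w1 + T a • w2
  hV : ∀ y, y = Ψ1 y • w1 + Ψ2 y • w2

/-- The radical maps. -/
def Ek {F L V : Type*} [Field F] [Field L] [Algebra F L]
    [AddCommGroup V] [Module L V] [Module F V] [IsScalarTower F L V]
    (x : V ≃ₗ[F] V) (v : V) (ψ : V →ₗ[L] L) (κ : L) : V →ₗ[F] V where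
  toFun y := x ((κ * ψ (x⁻¹ y)) • v)
  map_add' a b := by
    simp only [map_add, mul_add, add_smul]
  map_smul' c a := by
    simp only [map_smul, LinearMap.map_smul_of_tower, RingHom.id_apply, mul_smul_comm, smul_assoc]

section frame

variable {F L V : Type*} [Field F] [Field L] [Algebra F L]
  [AddCommGroup V] [Module L V] [Module F V] [IsScalarTower F L V]
  [Finite F] [Module.Finite F L] [Module.Finite L V] [Module.Finite F V]
  {x : V ≃ₗ[F] V} {v : V} {θ : L} {ψ Ψ1 Ψ2 : V →ₗ[L] L} {R T : L →ₗ[F] F} {w1 w2 : V}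

theorem Ek_apply (κ : L) (y : V) : Ek x v ψ κ y = x ((κ * ψ (x⁻¹ y)) • v) := rfl

theorem conj_eq (hb : ψ v = 0) (κ : L) (y : V) :
    (x * rt hb (m F κ) * x⁻¹) y = y + Ek x v ψ κ y := by
  simp only [LinearEquiv.mul_apply, rt_apply, m_apply, map_add, inv_app, Ek_apply]

theorem Ek_add (κ κ' : L) (y : V) : Ek x v ψ (κ + κ') y = Ek x v ψ κ y + Ek x v ψ κ' y := by
  simp only [Ek_apply, add_mul, add_smul, map_add]

theorem Ek_zero (y : V) : Ek x v ψ 0 y = 0 := by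
  simp [Ek_apply]

theorem Ek_smul (c : F) (κ : L) (y : V) : Ek x v ψ (c • κ) y = c • Ek x v ψ κ y := by
  simp only [Ek_apply, smul_mul_assoc, smul_assoc, map_smul]

theorem Ek_sub (κ κ' : L) (y : V) : Ek x v ψ (κ - κ') y = Ek x v ψ κ y - Ek x v ψ κ' y := by
  simp only [Ek_apply, sub_mul, sub_smul, map_sub]

variable (H : Fr x v θ ψ Ψ1 Ψ2 R T w1 w2)

include H

theorem Fr.ext_vec {u u' : V} (h1 : Ψ1 u = Ψ1 u') (h2 : Ψ2 u = Ψ2 u') : u = u' := by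
  rw [H.hV u, H.hV u', h1, h2]

theorem Fr.inW_iff (y : V) : InW F w1 w2 y ↔ T (Ψ1 y) = 0 ∧ T (Ψ2 y) = 0 := by
  constructor
  · rintro ⟨α, β, rfl⟩
    simp [LinearMap.map_smul_of_tower, H.h11, H.h12, H.h21, H.h22, H.hT1]
  · rintro ⟨h1, h2⟩
    refine ⟨R (Ψ1 y), R (Ψ2 y), ?_⟩
    apply H.ext_vec
    · simp only [map_add, LinearMap.map_smul_of_tower, H.h11, H.h12, smul_zero, add_zero]
      have := H.hdec (Ψ1 y)
      rw [h1, zero_smul, add_zero] at this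
      exact this
    · simp only [map_add, LinearMap.map_smul_of_tower, H.h21, H.h22, smul_zero, zero_add]
      have := H.hdec (Ψ2 y)
      rw [h2, zero_smul, add_zero] at this
      exact this

theorem Fr.R_combo (α β : F) : R (α • 1 + β • θ) = α := by
  simp [H.hR1, H.hRθ]

theorem Fr.T_combo (α β : F) : T (α • 1 + β • θ) = β := by
  simp [H.hT1, H.hTθ]

theorem Fr.x_combo (α β : F) : x ((α • (1 : L) + β • θ) • v) = α • w1 + β • w2 := by
  rw [H.hxa, H.R_combo, H.T_combo]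

theorem Fr.inW_image (a : L) : InW F w1 w2 (x (a • v)) := ⟨R a, T a, H.hxa a⟩

theorem Fr.ψ_zero_of_inW {y : V} (hy : InW F w1 w2 y) : ψ (x⁻¹ y) = 0 := by
  obtain ⟨α, β, rfl⟩ := hy
  rw [← H.x_combo, app_inv]
  simp [H.hψ]

theorem Fr.Ek_kill {y : V} (hy : InW F w1 w2 y) (κ : L) : Ek x v ψ κ y = 0 := by
  rw [Ek_apply, H.ψ_zero_of_inW hy]
  simp

theorem Fr.Ek_inW (κ : L) (y : V) : InW F w1 w2 (Ek x v ψ κ y) := H.inW_image _

theorem Fr.inW_of_Ek_zero (hm2 : finrank L V = 2) {κ : L} (hκ : κ ≠ 0) {y : V}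
    (h : Ek x v ψ κ y = 0) : InW F w1 w2 y := by
  rw [Ek_apply] at h
  have h1 : (κ * ψ (x⁻¹ y)) • v = 0 := by simpa using h
  have h2 : ψ (x⁻¹ y) = 0 := by
    rcases smul_eq_zero.mp h1 with h3 | h3
    · exact (mul_eq_zero.mp h3).resolve_left hκ
    · exact absurd h3 H.hv
  obtain ⟨d, hd⟩ := ker_eq_span hm2 H.hv H.hψ0 H.hψ h2
  have h3 : y = x (d • v) := by rw [← hd, inv_app]
  rw [h3]
  exact H.inW_image d

theorem Fr.Ek_formula (κ : L) (y : V) :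
    Ek x v ψ κ y = T (Ψ1 y) • Ek x v ψ κ (θ • w1) + T (Ψ2 y) • Ek x v ψ κ (θ • w2) := by
  have h1 : y = (R (Ψ1 y) • w1 + R (Ψ2 y) • w2) + (T (Ψ1 y) • (θ • w1) + T (Ψ2 y) • (θ • w2)) := by
    apply H.ext_vec
    · simp only [map_add, LinearMap.map_smul_of_tower, map_smul, H.h11, H.h12, smul_zero, add_zero,
        smul_eq_mul, mul_one, mul_zero]
      exact H.hdec _
    · simp only [map_add, LinearMap.map_smul_of_tower, map_smul, H.h21, H.h22, smul_zero, zero_add,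
        smul_eq_mul, mul_one, mul_zero]
      exact H.hdec _
  conv_lhs => rw [h1]
  rw [map_add, H.Ek_kill ⟨_, _, rfl⟩, zero_add, map_add, (Ek x v ψ κ).map_smul,
    (Ek x v ψ κ).map_smul]

theorem Fr.θw1_not (h : InW F w1 w2 (θ • w1)) : False := by
  have := ((H.inW_iff _).mp h).1
  rw [map_smul, H.h11, smul_eq_mul, mul_one, H.hTθ] at this
  exact one_ne_zero this

theorem Fr.θw2_not (h : InW F w1 w2 (θ • w2)) : False := by
  have := ((H.inW_iff _).mp h).2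
  rw [map_smul, H.h22, smul_eq_mul, mul_one, H.hTθ] at this
  exact one_ne_zero this

theorem Fr.rad (hm2 : finrank L V = 2) {X : Subgroup (V ≃ₗ[F] V)} (hxX : x ∈ X)
    (hstar : ∀ f, rt H.hψ f ∈ X → ∃ κ : L, f = m F κ) {γ : V ≃ₗ[F] V} (hγ : γ ∈ X)
    (h1 : ∀ y, InW F w1 w2 y → γ y = y) (h2 : ∀ y, InW F w1 w2 (γ y - y)) :
    ∃ κ : L, ∀ y, γ y = y + Ek x v ψ κ y := by
  let g := x⁻¹ * γ * x
  have hg : g ∈ X := X.mul_mem (X.mul_mem (X.inv_mem hxX) hγ) hxX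
  have hga : ∀ a : L, g (a • v) = a • v := by
    intro a
    simp only [g, LinearEquiv.mul_apply]
    rw [h1 _ (H.inW_image a), app_inv]
  have hgy : ∀ y, ∃ d : L, g y - y = d • v := by
    intro y
    obtain ⟨α, β, hαβ⟩ := h2 (x y)
    refine ⟨α • 1 + β • θ, ?_⟩
    have h3 : g y - y = x⁻¹ (γ (x y) - x y) := by
      simp only [g, LinearEquiv.mul_apply, map_sub, app_inv]
    rw [h3, hαβ, ← H.x_combo, app_inv]
  obtain ⟨f, hf⟩ := rad_form hm2 H.hv H.hψ0 H.hψ g hga hgy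
  obtain ⟨κ, hκ⟩ := hstar f (hf ▸ hg)
  refine ⟨κ, fun y => ?_⟩
  have h3 : γ y = x (g (x⁻¹ y)) := by
    simp only [g, LinearEquiv.mul_apply, inv_app]
  rw [h3, hf, hκ, rt_apply, map_add, inv_app]
  rfl

theorem Fr.w1_ne : w1 ≠ 0 := by
  rintro rfl
  have := H.h11
  simp at this

theorem Fr.w2_ne : w2 ≠ 0 := by
  rintro rfl
  have := H.h22
  simp at this

theorem Fr.nondeg (hm2 : finrank L V = 2) {κ : L} (hκ : κ ≠ 0) (α β : F)
    (h : α • Ek x v ψ κ (θ • w1) + β • Ek x v ψ κ (θ • w2) = 0) : α = 0 ∧ β = 0 := by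
  have h1 : Ek x v ψ κ (α • θ • w1 + β • θ • w2) = 0 := by
    rw [map_add, (Ek x v ψ κ).map_smul, (Ek x v ψ κ).map_smul]
    exact h
  have h2 := H.inW_of_Ek_zero hm2 hκ h1
  obtain ⟨e1, e2⟩ := (H.inW_iff _).mp h2
  simp only [map_add, LinearMap.map_smul_of_tower, map_smul, H.h11, H.h12, H.h21, H.h22, smul_eq_mul,
    mul_one, mul_zero, smul_zero, add_zero, zero_add, H.hTθ] at e1 e2
  simpa using ⟨e1, e2⟩

theorem Fr.conj_rad (hm2 : finrank L V = 2) {X : Subgroup (V ≃ₗ[F] V)} (hX : HH L X) (hxX : x ∈ X)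
    (hstar : ∀ f, rt H.hψ f ∈ X → ∃ κ : L, f = m F κ) {A : V ≃ₗ[F] V} (hA : A ∈ X)
    (hA1 : ∀ y, InW F w1 w2 y → InW F w1 w2 (A y)) (hA2 : ∀ y, InW F w1 w2 y → InW F w1 w2 (A⁻¹ y))
    (κ : L) : ∃ κ' : L, ∀ y, A (Ek x v ψ κ (A⁻¹ y)) = Ek x v ψ κ' y := by
  let φ := x * rt H.hψ (m F κ) * x⁻¹
  have hφ : φ ∈ X := X.mul_mem (X.mul_mem hxX (rt_m_mem hX H.hψ κ)) (X.inv_mem hxX)
  have hφa : ∀ y, φ y = y + Ek x v ψ κ y := fun y => conj_eq H.hψ κ y
  have hγa : ∀ y, (A * φ * A⁻¹) y = y + A (Ek x v ψ κ (A⁻¹ y)) := by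
    intro y
    simp only [LinearEquiv.mul_apply, hφa, map_add, inv_app]
  obtain ⟨κ', hκ'⟩ := H.rad hm2 hxX hstar (X.mul_mem (X.mul_mem hA hφ) (X.inv_mem hA))
    (fun y hy => by
      rw [hγa, H.Ek_kill (hA2 y hy)]
      simp)
    (fun y => by
      rw [hγa, add_sub_cancel_left]
      exact hA1 _ (H.Ek_inW _ _))
  refine ⟨κ', fun y => ?_⟩
  have := hκ' y
  rw [hγa] at this
  exact add_left_cancel this

theorem Fr.τ_inW (t : F) {y : V} (hy : InW F w1 w2 y) :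
    InW F w1 w2 (y + (algebraMap F L t * Ψ2 y) • w1) := by
  obtain ⟨α, β, rfl⟩ := hy
  refine ⟨α + t * β, β, ?_⟩
  have h1 : Ψ2 (α • w1 + β • w2) = algebraMap F L β := by
    simp [LinearMap.map_smul_of_tower, H.h21, H.h22, Algebra.algebraMap_eq_smul_one]
  rw [h1, ← map_mul, algebraMap_smul, add_smul]
  abel

theorem Fr.step_t (hm2 : finrank L V = 2) {X : Subgroup (V ≃ₗ[F] V)} (hX : HH L X) (hxX : x ∈ X)
    (hstar : ∀ f, rt H.hψ f ∈ X → ∃ κ : L, f = m F κ) (t : F) (κ : L) :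
    ∃ κ' : L, Ek x v ψ κ' (θ • w1) = Ek x v ψ κ (θ • w1) +
        (algebraMap F L t * Ψ2 (Ek x v ψ κ (θ • w1))) • w1 ∧
      Ek x v ψ κ' (θ • w2) = Ek x v ψ κ (θ • w2) - algebraMap F L t • Ek x v ψ κ (θ • w1) +
        (algebraMap F L t * (Ψ2 (Ek x v ψ κ (θ • w2)) -
          algebraMap F L t * Ψ2 (Ek x v ψ κ (θ • w1)))) • w1 := by
  let τ := rt H.h21 (m F (algebraMap F L t))
  have hτ : τ ∈ X := rt_m_mem hX H.h21 _
  have hτa : ∀ y, τ y = y + (algebraMap F L t * Ψ2 y) • w1 := fun y => rfl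
  have hτi : ∀ y, τ⁻¹ y = y - (algebraMap F L t * Ψ2 y) • w1 := fun y => rt_inv_apply H.h21 _ y
  obtain ⟨κ', hκ'⟩ := H.conj_rad hm2 hX hxX hstar hτ
    (fun y hy => by
      rw [hτa]
      exact H.τ_inW t hy)
    (fun y hy => by
      rw [hτi]
      have := H.τ_inW (-t) hy
      rwa [map_neg, neg_mul, neg_smul, ← sub_eq_add_neg] at this) κ
  refine ⟨κ', ?_, ?_⟩
  · rw [← hκ', hτi]
    have h1 : Ψ2 (θ • w1) = 0 := by simp [H.h21]
    rw [h1, mul_zero, zero_smul, sub_zero, hτa]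
  · rw [← hκ', hτi]
    have h1 : Ψ2 (θ • w2) = θ := by simp [H.h22]
    have h2 : θ • w2 - (algebraMap F L t * θ) • w1 = θ • w2 - t • (θ • w1) := by
      rw [mul_smul, algebraMap_smul]
    rw [h1, h2, map_sub, (Ek x v ψ κ).map_smul, hτa]
    have h3 : ∀ u : V, t • u = algebraMap F L t • u := fun u => (algebraMap_smul L t u).symm
    rw [h3, map_sub, Ψ2.map_smul, smul_eq_mul]

theorem Fr.C_zero (hm2 : finrank L V = 2) {X : Subgroup (V ≃ₗ[F] V)} (hX : HH L X) (hxX : x ∈ X)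
    (hstar : ∀ f, rt H.hψ f ∈ X → ∃ κ : L, f = m F κ) {t0 : F} (h0 : t0 ≠ 0) (h1 : t0 ≠ 1) (κ : L) :
    Ψ2 (Ek x v ψ κ (θ • w1)) = 0 := by
  obtain ⟨κ1, h11, h12⟩ := H.step_t hm2 hX hxX hstar 1 κ
  obtain ⟨κ2, h21, h22⟩ := H.step_t hm2 hX hxX hstar t0 κ
  rw [map_one] at h11 h12
  set a0 := algebraMap F L t0 with ha0
  set C := Ψ2 (Ek x v ψ κ (θ • w1)) with hC
  set D := Ψ2 (Ek x v ψ κ (θ • w2)) with hD
  set p1 := Ek x v ψ κ (θ • w1) with hp1
  set p2 := Ek x v ψ κ (θ • w2) with hp2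
  have hs : ∀ u : V, t0 • u = a0 • u := fun u => (algebraMap_smul L t0 u).symm
  let κ'' := (κ2 - κ) - t0 • (κ1 - κ)
  have h3 : Ek x v ψ κ'' (θ • w1) = 0 := by
    simp only [κ'']
    rw [Ek_sub, Ek_sub, Ek_smul, Ek_sub, h21, h11, hs]
    module
  have h4 : κ'' = 0 := by
    by_contra h
    exact H.θw1_not (H.inW_of_Ek_zero hm2 h h3)
  have h5 : Ek x v ψ κ'' (θ • w2) = 0 := by
    rw [h4, Ek_zero]
  simp only [κ''] at h5
  rw [Ek_sub, Ek_sub, Ek_smul, Ek_sub, h22, h12, hs] at h5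
  have h6 : (a0 * (1 - a0) * C) • w1 = 0 := by
    rw [← h5]
    module
  have h7 : a0 * (1 - a0) * C = 0 := (smul_eq_zero.mp h6).resolve_right H.w1_ne
  have h8 : a0 ≠ 0 := by simpa [ha0] using h0
  have h9 : 1 - a0 ≠ 0 := by
    intro h
    apply h1
    apply (algebraMap F L).injective
    rw [map_one]
    exact (sub_eq_zero.mp h).symm
  exact (mul_eq_zero.mp h7).resolve_left (mul_ne_zero h8 h9)

theorem Fr.false_of_three (hm2 : finrank L V = 2) {X : Subgroup (V ≃ₗ[F] V)} (hX : HH L X) (hxX : x ∈ X)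
    (hstar : ∀ f, rt H.hψ f ∈ X → ∃ κ : L, f = m F κ) {t0 : F} (h0 : t0 ≠ 0) (h1 : t0 ≠ 1) : False := by
  have hform : ∀ κ : L, ∃ α : F, Ek x v ψ κ (θ • w1) = α • w1 := by
    intro κ
    obtain ⟨α, β, h⟩ := H.Ek_inW κ (θ • w1)
    have h2 := H.C_zero hm2 hX hxX hstar h0 h1 κ
    rw [h] at h2
    simp only [map_add, LinearMap.map_smul_of_tower, H.h21, H.h22, smul_zero, zero_add] at h2
    have h3 : β = 0 := by
      simpa using h2
    refine ⟨α, ?_⟩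
    rw [h, h3]
    simp
  obtain ⟨α1, h11⟩ := hform 1
  obtain ⟨α2, h22⟩ := hform θ
  let κ3 : L := α2 • 1 + (-α1) • θ
  have h3 : Ek x v ψ κ3 (θ • w1) = 0 := by
    simp only [κ3]
    rw [Ek_add, Ek_smul, Ek_smul, h11, h22, smul_smul, smul_smul]
    rw [neg_mul, mul_comm, neg_smul, add_neg_cancel]
  have h4 : κ3 = 0 := by
    by_contra h
    exact H.θw1_not (H.inW_of_Ek_zero hm2 h h3)
  have h5 : -α1 = 0 := by
    have := H.T_combo α2 (-α1)
    rw [← this]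
    change T κ3 = 0
    rw [h4, map_zero]
  have h6 : α1 = 0 := by simpa using h5
  rw [h6, zero_smul] at h11
  exact H.θw1_not (H.inW_of_Ek_zero hm2 one_ne_zero h11)

end frame

section two

theorem one_add_one_of_two {F : Type*} [Field F] (hq : ∀ c : F, c = 0 ∨ c = 1) : (1 : F) + 1 = 0 := by
  rcases hq (1 + 1) with h | h
  · exact h
  · exfalso
    have : (1 : F) = 0 := by linear_combination h
    exact one_ne_zero this

theorem matrix_case {F : Type*} [Field F] (hq : ∀ c : F, c = 0 ∨ c = 1) (A B C D : F)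
    (h1 : ∀ α β : F, α * A + β * B = 0 → α * C + β * D = 0 → α = 0 ∧ β = 0)
    (h2 : ∀ α β : F, α * (A + 1) + β * B = 0 → α * C + β * (D + 1) = 0 → α = 0 ∧ β = 0) :
    (A = 0 ∧ B = 1 ∧ C = 1 ∧ D = 1) ∨ (A = 1 ∧ B = 1 ∧ C = 1 ∧ D = 0) := by
  have h2' : (1 : F) + 1 = 0 := one_add_one_of_two hq
  have a1 := h1 1 0
  have a2 := h1 0 1
  have a3 := h1 1 1
  have b1 := h2 1 0
  have b2 := h2 0 1
  have b3 := h2 1 1
  rcases hq A with rfl | rfl <;> rcases hq B with rfl | rfl <;> rcases hq C with rfl | rfl <;>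
    rcases hq D with rfl | rfl <;> simp [h2'] at a1 a2 a3 b1 b2 b3 ⊢

/-- The `F`-linear Frobenius map in coordinates. -/
def Sg {F L V : Type*} [Field F] [Field L] [Algebra F L]
    [AddCommGroup V] [Module L V] [Module F V] [IsScalarTower F L V]
    (Ψ1 Ψ2 : V →ₗ[L] L) (T : L →ₗ[F] F) (w1 w2 : V) : V →ₗ[F] V :=
  LinearMap.id + (T ∘ₗ Ψ1.restrictScalars F).smulRight w1 + (T ∘ₗ Ψ2.restrictScalars F).smulRight w2

theorem Sg_apply {F L V : Type*} [Field F] [Field L] [Algebra F L]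
    [AddCommGroup V] [Module L V] [Module F V] [IsScalarTower F L V]
    (Ψ1 Ψ2 : V →ₗ[L] L) (T : L →ₗ[F] F) (w1 w2 : V) (y : V) :
    Sg Ψ1 Ψ2 T w1 w2 y = y + T (Ψ1 y) • w1 + T (Ψ2 y) • w2 := rfl

/-- The swap map. -/
def Sw {L V : Type*} [Field L] [AddCommGroup V] [Module L V]
    (Ψ1 Ψ2 : V →ₗ[L] L) (w1 w2 : V) (θ : L) : V →ₗ[L] V :=
  (θ • Ψ2).smulRight w1 + (θ • Ψ1).smulRight w2

variable {F L V : Type*} [Field F] [Field L] [Algebra F L]
  [AddCommGroup V] [Module L V] [Module F V] [IsScalarTower F L V]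
  [Finite F] [Module.Finite F L] [Module.Finite L V] [Module.Finite F V]
  {x : V ≃ₗ[F] V} {v : V} {θ : L} {ψ Ψ1 Ψ2 : V →ₗ[L] L} {R T : L →ₗ[F] F} {w1 w2 : V}

theorem Sw_apply (θ : L) (y : V) :
    Sw Ψ1 Ψ2 w1 w2 θ y = (θ * Ψ2 y) • w1 + (θ * Ψ1 y) • w2 := by
  simp [Sw]

variable (H : Fr x v θ ψ Ψ1 Ψ2 R T w1 w2) (hq : ∀ c : F, c = 0 ∨ c = 1)

include H

theorem Fr.Sw_1 (t : L) (y : V) : Ψ1 (Sw Ψ1 Ψ2 w1 w2 t y) = t * Ψ2 y := by
  rw [Sw_apply]
  simp [H.h11, H.h12]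

theorem Fr.Sw_2 (t : L) (y : V) : Ψ2 (Sw Ψ1 Ψ2 w1 w2 t y) = t * Ψ1 y := by
  rw [Sw_apply]
  simp [H.h21, H.h22]

theorem Fr.θ_ne_zero : θ ≠ 0 := by
  intro h
  have := H.hTθ
  rw [h, map_zero] at this
  exact zero_ne_one this

theorem Fr.θ_ne_one : θ ≠ 1 := by
  intro h
  have := H.hTθ
  rw [h, H.hT1] at this
  exact zero_ne_one this

include hq

omit H in
theorem two_L : (2 : L) = 0 := by
  have h := one_add_one_of_two hq
  have h1 := congrArg (algebraMap F L) h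
  simp only [map_add, map_one, map_zero] at h1
  rw [← h1]
  norm_num

theorem Fr.θ_sq : θ * θ = θ + 1 := by
  have h2 : (2 : L) = 0 := two_L (F := F) hq
  have hdec := H.hdec (θ * θ)
  have h0 := H.θ_ne_zero
  have h1 := H.θ_ne_one
  rcases hq (R (θ * θ)) with a | a <;> rcases hq (T (θ * θ)) with b | b <;> rw [a, b] at hdec <;>
    simp only [zero_smul, one_smul, add_zero, zero_add] at hdec
  · exfalso
    exact h0 (mul_self_eq_zero.mp hdec)
  · exfalso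
    have h3 : θ * (θ - 1) = 0 := by linear_combination hdec
    rcases mul_eq_zero.mp h3 with h4 | h4
    · exact h0 h4
    · exact h1 (sub_eq_zero.mp h4)
  · exfalso
    have h3 : (θ - 1) * (θ - 1) = 0 := by linear_combination hdec - θ * h2 + h2
    exact h1 (sub_eq_zero.mp (mul_self_eq_zero.mp h3))
  · linear_combination hdec

theorem Fr.hT (a : L) : algebraMap F L (T a) = a * a + a := by
  have h2 : (2 : L) = 0 := two_L (F := F) hq
  have hθ := H.θ_sq hq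
  have hcc : ∀ c : F, algebraMap F L c * algebraMap F L c = algebraMap F L c := by
    intro c
    rcases hq c with rfl | rfl <;> simp
  have ha := H.hdec a
  simp only [Algebra.smul_def, mul_one] at ha
  have hu := hcc (R a)
  have hw := hcc (T a)
  generalize algebraMap F L (R a) = u at ha hu
  generalize algebraMap F L (T a) = w at ha hw ⊢
  subst ha
  grind

theorem Fr.h4 (a : L) : a * a * a * a = a := by
  have h2 : (2 : L) = 0 := two_L (F := F) hq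
  have hcc : ∀ c : F, algebraMap F L c * algebraMap F L c = algebraMap F L c := by
    intro c
    rcases hq c with rfl | rfl <;> simp
  have h1 := hcc (T a)
  rw [H.hT hq] at h1
  grind

theorem Fr.Sg_1 (y : V) : Ψ1 (Sg Ψ1 Ψ2 T w1 w2 y) = Ψ1 y * Ψ1 y := by
  have h2 : (2 : L) = 0 := two_L (F := F) hq
  rw [Sg_apply]
  simp only [map_add, LinearMap.map_smul_of_tower, H.h11, H.h12, smul_zero, add_zero]
  rw [← Algebra.algebraMap_eq_smul_one, H.hT hq]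
  grind

theorem Fr.Sg_2 (y : V) : Ψ2 (Sg Ψ1 Ψ2 T w1 w2 y) = Ψ2 y * Ψ2 y := by
  have h2 : (2 : L) = 0 := two_L (F := F) hq
  rw [Sg_apply]
  simp only [map_add, LinearMap.map_smul_of_tower, H.h21, H.h22, smul_zero, add_zero, zero_add]
  rw [← Algebra.algebraMap_eq_smul_one, H.hT hq]
  grind

theorem Fr.Sg_Sg (y : V) : Sg Ψ1 Ψ2 T w1 w2 (Sg Ψ1 Ψ2 T w1 w2 y) = y := by
  apply H.ext_vec
  · rw [H.Sg_1 hq, H.Sg_1 hq, ← mul_assoc]
    exact H.h4 hq _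
  · rw [H.Sg_2 hq, H.Sg_2 hq, ← mul_assoc]
    exact H.h4 hq _

/-- The Frobenius map as an equivalence. -/
def Fr.SgE : V ≃ₗ[F] V :=
  LinearEquiv.ofLinearMap (Sg Ψ1 Ψ2 T w1 w2) (Sg Ψ1 Ψ2 T w1 w2)
    (by
      ext y
      exact H.Sg_Sg hq y)
    (by
      ext y
      exact H.Sg_Sg hq y)

theorem Fr.SgE_apply (y : V) : H.SgE hq y = Sg Ψ1 Ψ2 T w1 w2 y := rfl

theorem Fr.SgE_semi : Semi (L := L) (H.SgE hq) := by
  intro a
  refine ⟨a * a, fun y => ?_⟩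
  rw [H.SgE_apply, H.SgE_apply]
  apply H.ext_vec
  · rw [H.Sg_1 hq, map_smul, map_smul, H.Sg_1 hq]
    simp only [smul_eq_mul]
    ring
  · rw [H.Sg_2 hq, map_smul, map_smul, H.Sg_2 hq]
    simp only [smul_eq_mul]
    ring

omit H in
theorem unit_eq_one (u : Fˣ) : u = 1 := by
  ext
  rcases hq (u : F) with h | h
  · exact absurd h u.ne_zero
  · simpa using h

theorem Fr.exists_κ0 (hm2 : finrank L V = 2) {X : Subgroup (V ≃ₗ[F] V)} (hX : HH L X) (hxX : x ∈ X)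
    (hstar : ∀ f, rt H.hψ f ∈ X → ∃ κ : L, f = m F κ) :
    ∃ κ0 : L, ∀ y, Ek x v ψ κ0 y = T (Ψ1 y) • w1 + T (Ψ2 y) • w2 := by
  have hσ : H.SgE hq ∈ X := hX _ (H.SgE_semi hq) (unit_eq_one hq _)
  obtain ⟨κ0, hκ0⟩ := H.rad hm2 hxX hstar hσ
    (fun y hy => by
      obtain ⟨e1, e2⟩ := (H.inW_iff y).mp hy
      rw [H.SgE_apply, Sg_apply, e1, e2]
      simp)
    (fun y => ⟨T (Ψ1 y), T (Ψ2 y), by
      rw [H.SgE_apply, Sg_apply]
      abel⟩)
  refine ⟨κ0, fun y => ?_⟩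
  have := hκ0 y
  rw [H.SgE_apply, Sg_apply, add_assoc] at this
  exact (add_left_cancel this).symm

theorem Fr.exists_e (hm2 : finrank L V = 2) {X : Subgroup (V ≃ₗ[F] V)} (hX : HH L X) (hxX : x ∈ X)
    (hstar : ∀ f, rt H.hψ f ∈ X → ∃ κ : L, f = m F κ) :
    ∃ κ : L, Ek x v ψ κ (θ • w1) = w2 ∧ Ek x v ψ κ (θ • w2) = w1 + w2 := by
  obtain ⟨κ0, hκ0⟩ := H.exists_κ0 hq hm2 hX hxX hstar
  have h01 : Ek x v ψ κ0 (θ • w1) = w1 := by
    rw [hκ0]
    simp [H.h11, H.h21, H.hTθ]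
  have h02 : Ek x v ψ κ0 (θ • w2) = w2 := by
    rw [hκ0]
    simp [H.h12, H.h22, H.hTθ]
  have hκ00 : κ0 ≠ 0 := by
    rintro rfl
    rw [Ek_zero] at h01
    exact H.w1_ne h01.symm
  let κ3 := θ * κ0
  have hκ3 : κ3 ≠ 0 := mul_ne_zero H.θ_ne_zero hκ00
  have hκ30 : κ3 + κ0 ≠ 0 := by
    have h1 : κ3 + κ0 = (θ + 1) * κ0 := by simp only [κ3]; ring
    rw [h1]
    apply mul_ne_zero _ hκ00
    intro h
    apply H.θ_ne_one
    have h2 : (2 : L) = 0 := two_L (F := F) hq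
    linear_combination h - h2
  obtain ⟨A, C, hAC⟩ := H.Ek_inW κ3 (θ • w1)
  obtain ⟨B, D, hBD⟩ := H.Ek_inW κ3 (θ • w2)
  have hc2 : (1 : F) + 1 = 0 := one_add_one_of_two hq
  have hw : ∀ u : V, u + u = 0 := by
    intro u
    have h := congrArg (fun c : F => c • u) hc2
    simpa [add_smul] using h
  have h1 : ∀ α β : F, α * A + β * B = 0 → α * C + β * D = 0 → α = 0 ∧ β = 0 := by
    intro α β e1 e2
    apply H.nondeg hm2 hκ3 α β
    rw [hAC, hBD]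
    have : α • (A • w1 + C • w2) + β • (B • w1 + D • w2) =
        (α * A + β * B) • w1 + (α * C + β * D) • w2 := by module
    rw [this, e1, e2]
    simp
  have h2 : ∀ α β : F, α * (A + 1) + β * B = 0 → α * C + β * (D + 1) = 0 → α = 0 ∧ β = 0 := by
    intro α β e1 e2
    apply H.nondeg hm2 hκ30 α β
    rw [Ek_add, Ek_add, hAC, hBD, h01, h02]
    have : α • (A • w1 + C • w2 + w1) + β • (B • w1 + D • w2 + w2) =
        (α * (A + 1) + β * B) • w1 + (α * C + β * (D + 1)) • w2 := by module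
    rw [this, e1, e2]
    simp
  rcases matrix_case hq A B C D h1 h2 with ⟨rfl, rfl, rfl, rfl⟩ | ⟨rfl, rfl, rfl, rfl⟩
  · refine ⟨κ3, ?_, ?_⟩
    · rw [hAC]; simp
    · rw [hBD]; simp
  · refine ⟨κ3 + κ0, ?_, ?_⟩
    · rw [Ek_add, hAC, h01]
      simp only [one_smul]
      have := hw w1
      calc w1 + w2 + w1 = (w1 + w1) + w2 := by abel
        _ = w2 := by rw [this, zero_add]
    · rw [Ek_add, hBD, h02]
      simp

omit H in
theorem toF_mem_two {X : Subgroup (V ≃ₗ[F] V)} (hX : HH L X) (h : V ≃ₗ[L] V) : toF (F := F) h ∈ X := by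
  apply toF_mem hX
  have h1 : Algebra.norm F ((LinearEquiv.det h : Lˣ) : L) ≠ 0 := by
    rw [Ne, Algebra.norm_eq_zero_iff]
    exact (LinearEquiv.det h).ne_zero
  exact (hq _).resolve_left h1

theorem Fr.rank_one_of_two_elts (hm2 : finrank L V = 2) {X : Subgroup (V ≃ₗ[F] V)} (hX : HH L X)
    (hxX : x ∈ X) (hstar : ∀ f, rt H.hψ f ∈ X → ∃ κ : L, f = m F κ) :
    ∃ (b' : V) (ψ' : V →ₗ[L] L) (hb' : ψ' b' = 0), b' ≠ 0 ∧ ψ' ≠ 0 ∧
      ∃ (p2 : L) (π2 : L →ₗ[F] F), p2 ≠ 0 ∧ π2 ≠ 0 ∧ rt hb' (ro p2 π2) ∈ X := by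
  have h2 : (2 : L) = 0 := two_L (F := F) hq
  have hθ := H.θ_sq hq
  have hθ0 := H.θ_ne_zero
  obtain ⟨κ, he1, he2⟩ := H.exists_e hq hm2 hX hxX hstar
  let e := x * rt H.hψ (m F κ) * x⁻¹
  have he : e ∈ X := X.mul_mem (X.mul_mem hxX (rt_m_mem hX H.hψ κ)) (X.inv_mem hxX)
  have hea : ∀ y, e y = y + T (Ψ1 y) • w2 + T (Ψ2 y) • (w1 + w2) := by
    intro y
    change (x * rt H.hψ (m F κ) * x⁻¹) y = _
    rw [conj_eq, H.Ek_formula, he1, he2, add_assoc]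
  have he_1 : ∀ y, Ψ1 (e y) = Ψ1 y + (Ψ2 y * Ψ2 y + Ψ2 y) := by
    intro y
    rw [hea]
    simp only [map_add, LinearMap.map_smul_of_tower, H.h11, H.h12, smul_zero, add_zero]
    rw [← Algebra.algebraMap_eq_smul_one, H.hT hq]
  have he_2 : ∀ y, Ψ2 (e y) = Ψ2 y + (Ψ1 y * Ψ1 y + Ψ1 y) + (Ψ2 y * Ψ2 y + Ψ2 y) := by
    intro y
    rw [hea]
    simp only [map_add, LinearMap.map_smul_of_tower, H.h21, H.h22, smul_zero, add_zero, zero_add]
    rw [← Algebra.algebraMap_eq_smul_one, H.hT hq, ← Algebra.algebraMap_eq_smul_one, H.hT hq]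
  let L1 : V ≃ₗ[L] V := He H.h11 H.h12 H.h21 H.h22 hθ0 (mul_ne_zero hθ0 hθ0)
  have hL1_1 : ∀ y, Ψ1 (toF (F := F) L1 y) = θ * Ψ1 y := fun y =>
    Hl_β H.h11 H.h12 H.h21 H.h22 θ (θ * θ) y
  have hL1_2 : ∀ y, Ψ2 (toF (F := F) L1 y) = θ * θ * Ψ2 y := fun y =>
    Hl_ψ H.h11 H.h12 H.h21 H.h22 θ (θ * θ) y
  let L2 : V ≃ₗ[L] V := LinearEquiv.ofLinearMap (Sw Ψ1 Ψ2 w1 w2 θ) (Sw Ψ1 Ψ2 w1 w2 θ⁻¹)
    (by
      ext y
      apply H.ext_vec
      · change Ψ1 (Sw Ψ1 Ψ2 w1 w2 θ (Sw Ψ1 Ψ2 w1 w2 θ⁻¹ y)) = Ψ1 y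
        rw [H.Sw_1, H.Sw_2, ← mul_assoc, mul_inv_cancel₀ hθ0, one_mul]
      · change Ψ2 (Sw Ψ1 Ψ2 w1 w2 θ (Sw Ψ1 Ψ2 w1 w2 θ⁻¹ y)) = Ψ2 y
        rw [H.Sw_2, H.Sw_1, ← mul_assoc, mul_inv_cancel₀ hθ0, one_mul])
    (by
      ext y
      apply H.ext_vec
      · change Ψ1 (Sw Ψ1 Ψ2 w1 w2 θ⁻¹ (Sw Ψ1 Ψ2 w1 w2 θ y)) = Ψ1 y
        rw [H.Sw_1, H.Sw_2, ← mul_assoc, inv_mul_cancel₀ hθ0, one_mul]
      · change Ψ2 (Sw Ψ1 Ψ2 w1 w2 θ⁻¹ (Sw Ψ1 Ψ2 w1 w2 θ y)) = Ψ2 y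
        rw [H.Sw_2, H.Sw_1, ← mul_assoc, inv_mul_cancel₀ hθ0, one_mul])
  have hL2_1 : ∀ y, Ψ1 (toF (F := F) L2 y) = θ * Ψ2 y := fun y => H.Sw_1 θ y
  have hL2_2 : ∀ y, Ψ2 (toF (F := F) L2 y) = θ * Ψ1 y := fun y => H.Sw_2 θ y
  have hL1X := toF_mem_two hq hX L1
  have hL2X := toF_mem_two hq hX L2
  have hb' : (Ψ1 + Ψ2) (w1 + w2) = 0 := by
    simp only [LinearMap.add_apply, map_add, H.h11, H.h12, H.h21, H.h22]
    linear_combination h2
  have hw1w2 : w1 + w2 ≠ 0 := by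
    intro h
    have := congrArg Ψ1 h
    simp [H.h11, H.h12] at this
  have hψ' : Ψ1 + Ψ2 ≠ 0 := by
    intro h
    have := LinearMap.congr_fun h w1
    simp [H.h11, H.h21] at this
  refine ⟨w1 + w2, Ψ1 + Ψ2, hb', hw1w2, hψ', θ, T ∘ₗ m F (θ * θ), hθ0, ?_, ?_⟩
  · intro h
    have := LinearMap.congr_fun h ((θ * θ)⁻¹ * θ)
    simp only [LinearMap.comp_apply, m_apply, LinearMap.zero_apply] at this
    rw [← mul_assoc, mul_inv_cancel₀ (mul_ne_zero hθ0 hθ0), one_mul, H.hTθ] at this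
    exact one_ne_zero this
  · have key : rt hb' (ro θ (T ∘ₗ m F (θ * θ))) = e * toF (F := F) L1 * e * toF (F := F) L2 := by
      ext y
      have h4a := H.h4 hq (Ψ1 y)
      have h4c := H.h4 hq (Ψ2 y)
      have hrt : rt hb' (ro θ (T ∘ₗ m F (θ * θ))) y = y +
          (((θ * θ * (Ψ1 y + Ψ2 y)) * (θ * θ * (Ψ1 y + Ψ2 y)) + θ * θ * (Ψ1 y + Ψ2 y)) * θ) • (w1 + w2) := by
        rw [rt_apply]
        congr 2
        simp only [LinearMap.smulRight_apply, LinearMap.comp_apply, m_apply, LinearMap.add_apply]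
        rw [Algebra.smul_def, H.hT hq]
      rw [hrt]
      apply H.ext_vec
      · simp only [LinearEquiv.mul_apply, he_1, he_2, hL1_1, hL1_2, hL2_1, hL2_2, map_add, map_smul,
          H.h11, H.h12, smul_eq_mul, mul_one, add_zero]
        generalize Ψ1 y = a at h4a ⊢
        generalize Ψ2 y = c at h4c ⊢
        grind
      · simp only [LinearEquiv.mul_apply, he_1, he_2, hL1_1, hL1_2, hL2_1, hL2_2, map_add, map_smul,
          H.h21, H.h22, smul_eq_mul, mul_one, add_zero, mul_zero, zero_add]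
        generalize Ψ1 y = a at h4a ⊢
        generalize Ψ2 y = c at h4c ⊢
        grind
    rw [key]
    exact X.mul_mem (X.mul_mem (X.mul_mem he hL1X) he) hL2X

end two

section final

variable {F L V : Type*} [Field F] [Field L] [Algebra F L]
  [AddCommGroup V] [Module L V] [Module F V] [IsScalarTower F L V]
  [Finite F] [Module.Finite F L] [Module.Finite L V] [Module.Finite F V]

theorem rank_one_22 (hr2 : finrank F L = 2) (hm2 : finrank L V = 2) {X : Subgroup (V ≃ₗ[F] V)}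
    (hX : HH L X) {x : V ≃ₗ[F] V} (hxX : x ∈ X) (hS : ¬ Semi (L := L) x) :
    ∃ (b : V) (ψ : V →ₗ[L] L) (hb : ψ b = 0), b ≠ 0 ∧ ψ ≠ 0 ∧
      ∃ (p2 : L) (π2 : L →ₗ[F] F), p2 ≠ 0 ∧ π2 ≠ 0 ∧ rt hb (ro p2 π2) ∈ X := by
  have hm : 2 ≤ finrank L V := by omega
  have h1 : ∃ (v : V) (a : L), ∀ c : L, x (a • v) ≠ c • x v := by
    by_contra h
    push Not at h
    exact hS (semi_of_line hm x h)
  obtain ⟨v, θ, hva⟩ := h1
  have hv : v ≠ 0 := by
    rintro rfl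
    exact hva 0 (by simp)
  have hθ : ∀ c : F, algebraMap F L c ≠ θ := by
    intro c hc
    apply hva (algebraMap F L c)
    rw [← hc, algebraMap_smul, map_smul, algebraMap_smul]
  have hθ0 : θ ≠ 0 := by
    rintro rfl
    exact hva 0 (by simp)
  obtain ⟨R, T, hR1, hT1, hRθ, hTθ, hdec⟩ := exists_coord hr2 hθ
  set w1 := x v with hw1
  set w2 := x (θ • v) with hw2
  have hw10 : w1 ≠ 0 := by simpa [hw1] using hv
  have hw20 : w2 ≠ 0 := by
    simp only [hw2, ne_eq, EmbeddingLike.map_eq_zero_iff, smul_eq_zero, not_or]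
    exact ⟨hθ0, hv⟩
  have hw2s : w2 ∉ Submodule.span L {w1} := by
    intro h
    obtain ⟨c, hc⟩ := Submodule.mem_span_singleton.mp h
    exact hva c hc.symm
  have hw1s : w1 ∉ Submodule.span L {w2} := not_mem_span_symm hw10 hw2s
  obtain ⟨Ψ2, h21, h22⟩ := exists_sep_pair hw2s
  obtain ⟨Ψ1, h12, h11⟩ := exists_sep_pair hw1s
  obtain ⟨z, hz⟩ := exists_not_mem_span (L := L) hm v
  obtain ⟨ψ, hψ, hψz⟩ := exists_sep_pair hz
  have hψ0 : ψ ≠ 0 := by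
    rintro rfl
    simp at hψz
  have hΨ20 : Ψ2 ≠ 0 := by
    rintro rfl
    simp at h22
  have hV : ∀ y, y = Ψ1 y • w1 + Ψ2 y • w2 := by
    intro y
    have h3 : Ψ2 (y - Ψ2 y • w2) = 0 := by simp [h22]
    obtain ⟨d, hd⟩ := ker_eq_span hm2 hw10 hΨ20 h21 h3
    have h4 : Ψ1 y = d := by
      have := congrArg Ψ1 hd
      simpa [h11, h12] using this
    rw [h4, ← hd]
    abel
  have hxa : ∀ a : L, x (a • v) = R a • w1 + T a • w2 := by
    intro a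
    conv_lhs => rw [hdec a]
    rw [add_smul, smul_assoc, smul_assoc, one_smul, map_add, map_smul, map_smul]
  let H : Fr x v θ ψ Ψ1 Ψ2 R T w1 w2 :=
    { hv := hv, hψ := hψ, hψ0 := hψ0, h11 := h11, h12 := h12, h21 := h21, h22 := h22, hR1 := hR1,
      hT1 := hT1, hRθ := hRθ, hTθ := hTθ, hdec := hdec, hxa := hxa, hV := hV }
  by_cases hno : ∃ (p2 : L) (π2 : L →ₗ[F] F), p2 ≠ 0 ∧ π2 ≠ 0 ∧ rt hψ (ro p2 π2) ∈ X
  · exact ⟨v, ψ, hψ, hv, hψ0, hno⟩
  have hstar : ∀ f, rt H.hψ f ∈ X → ∃ κ : L, f = m F κ := fun f hf =>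
    star_of_no_rank_one hr2 hθ hX hψ hno hf
  by_cases ht : ∃ t0 : F, t0 ≠ 0 ∧ t0 ≠ 1
  · obtain ⟨t0, h0, h1⟩ := ht
    exact (H.false_of_three hm2 hX hxX hstar h0 h1).elim
  · have hq : ∀ c : F, c = 0 ∨ c = 1 := by
      intro c
      by_contra h
      push Not at h
      exact ht ⟨c, h.1, h.2⟩
    exact H.rank_one_of_two_elts hq hm2 hX hxX hstar

end final

end Cfsg.Agent.Lib.ExtE
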