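import Mathlib
import Cfsg.Prelude.Def_GeometricClasses
import Cfsg.Agent.Lib.MatConj

/-!
# Field subalgebras of matrix algebras, abstractly

A field subalgebra `K` of `M_r(F)` of dimension `r`, `r` prime, `F` finite: every non-scalar element of the normalizer of `K`
has a minimal polynomial of degree at least `r`, and there is a Frobenius element in the normalizer.
-/

set_option autoImplicit false

namespace Cfsg.Agent.Lib.FieldModel

open Matrix Polynomial Module Cfsg.Geo
open Cfsg.Agent.Lib.MatConj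

universe u

variable {F : Type u} [Field F] {ι : Type} [Fintype ι] [DecidableEq ι]

local notation "Mt" => Matrix ι ι F

/-- An abstract model of a field subalgebra. -/
theorem exists_model {K : Subalgebra F Mt} {r : ℕ} (hr : r ≠ 0) (hK : IsFieldSubalgebra r K) :
    ∃ (L : Type u) (_ : Field L) (_ : Algebra F L) (φ : L →ₐ[F] Mt), Function.Injective φ ∧
      (∀ k, k ∈ K ↔ ∃ a, φ a = k) ∧ finrank F L = r := by
  have hfin := hK.finrank_eq
  have h1ne : (1 : K) ≠ 0 := by
    intro h
    have : Subsingleton K := by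
      refine ⟨fun a b => ?_⟩
      have ha : a = 0 := by rw [← mul_one a, h, mul_zero]
      have hb : b = 0 := by rw [← mul_one b, h, mul_zero]
      rw [ha, hb]
    rw [finrank_zero_of_subsingleton] at hfin
    exact hr hfin.symm
  have hfield : IsField K :=
    { exists_pair_ne := ⟨1, 0, h1ne⟩
      mul_comm := fun a b => Subtype.ext (hK.comm a a.2 b b.2)
      mul_inv_cancel := by
        intro a ha
        obtain ⟨y, hy, hxy⟩ := hK.inv a a.2 (fun h => ha (Subtype.ext h))
        exact ⟨⟨y, hy⟩, Subtype.ext hxy⟩ }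
  letI : Field K := hfield.toField
  refine ⟨K, inferInstance, K.algebra, K.val, Subtype.val_injective, ?_, hfin⟩
  intro k
  constructor
  · intro hk
    exact ⟨⟨k, hk⟩, rfl⟩
  · rintro ⟨a, rfl⟩
    exact a.2

section model

variable {L : Type u} [Field L] [Algebra F L] (φ : L →ₐ[F] Matrix ι ι F)

theorem mul_inv_φ {a : L} (ha : a ≠ 0) : φ a * φ a⁻¹ = 1 := by
  rw [← map_mul, mul_inv_cancel₀ ha, map_one]

theorem inv_mul_φ {a : L} (ha : a ≠ 0) : φ a⁻¹ * φ a = 1 := by
  rw [← map_mul, inv_mul_cancel₀ ha, map_one]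

theorem mulVec_ne_zero {a : L} (ha : a ≠ 0) {v : ι → F} (hv : v ≠ 0) : φ a *ᵥ v ≠ 0 := by
  intro h
  apply hv
  have := congrArg (fun u => φ a⁻¹ *ᵥ u) h
  simpa [Matrix.mulVec_mulVec, inv_mul_φ φ ha] using this

/-- The evaluation at a non-zero vector. -/
noncomputable def evalMap (v : ι → F) : L →ₗ[F] (ι → F) :=
  { toFun := fun a => φ a *ᵥ v
    map_add' := fun a b => by rw [map_add, Matrix.add_mulVec]
    map_smul' := fun c a => by rw [map_smul, Matrix.smul_mulVec, RingHom.id_apply] }

theorem evalMap_apply (v : ι → F) (a : L) : evalMap φ v a = φ a *ᵥ v := rfl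

theorem evalMap_injective {v : ι → F} (hv : v ≠ 0) : Function.Injective (evalMap φ v) := by
  rw [← LinearMap.ker_eq_bot, LinearMap.ker_eq_bot']
  intro a ha
  by_contra h
  exact mulVec_ne_zero φ h hv ha

/-- The evaluation at a non-zero vector, as a linear bijection. -/
noncomputable def evalEquiv (hc : finrank F L = Fintype.card ι) {v : ι → F} (hv : v ≠ 0) : L ≃ₗ[F] (ι → F) :=
  haveI : FiniteDimensional F L := by
    apply FiniteDimensional.of_injective (evalMap φ v) (evalMap_injective φ hv)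
  LinearEquiv.ofInjectiveOfFinrankEq (evalMap φ v) (evalMap_injective φ hv) (by simpa using hc)

theorem evalEquiv_apply (hc : finrank F L = Fintype.card ι) {v : ι → F} (hv : v ≠ 0) (a : L) :
    evalEquiv φ hc hv a = φ a *ᵥ v := by
  unfold evalEquiv
  simp [LinearEquiv.ofInjectiveOfFinrankEq, evalMap_apply]

theorem exists_mulVec_eq (hc : finrank F L = Fintype.card ι) {v : ι → F} (hv : v ≠ 0) (u : ι → F) :
    ∃ a, φ a *ᵥ v = u := by
  refine ⟨(evalEquiv φ hc hv).symm u, ?_⟩
  rw [← evalEquiv_apply φ hc hv, LinearEquiv.apply_symm_apply]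

theorem exists_ne_zero_vec (hc : finrank F L = Fintype.card ι) (hcr : finrank F L ≠ 0) : ∃ v : ι → F, v ≠ 0 := by
  have hne : Nonempty ι := by
    rw [← Fintype.card_pos_iff, ← hc]
    omega
  obtain ⟨i⟩ := hne
  refine ⟨Pi.single i 1, ?_⟩
  intro h
  have := congrFun h i
  simp at this

/-- The centralizer of the image is the image. -/
theorem exists_eq_of_comm (hc : finrank F L = Fintype.card ι) (hcr : finrank F L ≠ 0) (y : Mt)
    (hy : ∀ a, y * φ a = φ a * y) : ∃ k, y = φ k := by
  obtain ⟨v, hv⟩ := exists_ne_zero_vec (ι := ι) (F := F) hc hcr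
  obtain ⟨k, hk⟩ := exists_mulVec_eq φ hc hv (y *ᵥ v)
  refine ⟨k, ?_⟩
  apply Matrix.ext_of_mulVec_single
  intro i
  obtain ⟨a, ha⟩ := exists_mulVec_eq φ hc hv (Pi.single i 1)
  rw [← ha, Matrix.mulVec_mulVec, hy, ← Matrix.mulVec_mulVec, ← hk, Matrix.mulVec_mulVec, Matrix.mulVec_mulVec,
    ← map_mul, ← map_mul, mul_comm]

/-- **Key lemma**: a non-scalar element of the normalizer is killed by no nonzero polynomial of degree less than `r`. -/
theorem scalar_of_low_poly [Finite F] {K : Subalgebra F Mt} {r : ℕ} (hr : r.Prime)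
    (hφ : Function.Injective φ) (hKφ : ∀ k, k ∈ K ↔ ∃ a, φ a = k) (hfin : finrank F L = r)
    (hc : finrank F L = Fintype.card ι)
    (y : GL ι F) (hy : y ∈ subalgebraNormalizer K) (g : F[X]) (hg : g ≠ 0) (hdeg : g.natDegree < r)
    (h0 : aeval (y : Mt) g = 0) : ∃ s : F, (y : Mt) = s • 1 := by
  classical
  have hcr : finrank F L ≠ 0 := by rw [hfin]; exact hr.ne_zero
  haveI : FiniteDimensional F L := Module.finite_of_finrank_pos (by omega)
  haveI : Finite L := Module.finite_of_finite F
  have hα : ∀ a, ∃ b, (y : Mt) * φ a * ((y⁻¹ : GL ι F) : Mt) = φ b := by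
    intro a
    obtain ⟨b, hb⟩ := (hKφ _).mp ((hy (φ a)).mp ((hKφ _).mpr ⟨a, rfl⟩))
    exact ⟨b, hb.symm⟩
  choose α hα using hα
  have hyy : (y : Mt) * ((y⁻¹ : GL ι F) : Mt) = 1 := Units.mul_inv y
  have hyy' : ((y⁻¹ : GL ι F) : Mt) * (y : Mt) = 1 := Units.inv_mul y
  let αA : L →ₐ[F] L :=
    { toFun := α
      map_one' := by
        apply hφ
        rw [← hα, map_one, Matrix.mul_one, hyy]
      map_mul' := by
        intro a b
        apply hφ
        rw [← hα, map_mul, map_mul, ← hα, ← hα]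
        calc (y : Mt) * (φ a * φ b) * ((y⁻¹ : GL ι F) : Mt)
            = (y : Mt) * φ a * 1 * φ b * ((y⁻¹ : GL ι F) : Mt) := by simp only [Matrix.mul_one, Matrix.mul_assoc]
          _ = _ := by rw [← hyy']; simp only [Matrix.mul_assoc]
      map_zero' := by
        apply hφ
        rw [← hα, map_zero, Matrix.mul_zero, Matrix.zero_mul]
      map_add' := by
        intro a b
        apply hφ
        rw [← hα, map_add, map_add, ← hα, ← hα, Matrix.mul_add, Matrix.add_mul]
      commutes' := by
        intro s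
        apply hφ
        rw [← hα, AlgHom.commutes, Algebra.algebraMap_eq_smul_one, Matrix.mul_smul,
          Matrix.smul_mul, Matrix.mul_one, hyy] }
  have hαA : ∀ a, αA a = α a := fun a => rfl
  let αE : L ≃ₐ[F] L := AlgEquiv.ofBijective αA (Algebra.IsAlgebraic.algHom_bijective αA)
  have hαE : ∀ a, φ (αE a) = (y : Mt) * φ a * ((y⁻¹ : GL ι F) : Mt) := fun a => (hα a).symm
  have hαE' : ∀ a, (y : Mt) * φ a = φ (αE a) * (y : Mt) := by
    intro a
    rw [hαE, Matrix.mul_assoc, hyy', Matrix.mul_one]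
  by_cases h1 : αE = 1
  · -- the centralizing case
    obtain ⟨k, hk⟩ := exists_eq_of_comm φ hc hcr (y : Mt) (by
      intro a
      rw [hαE', h1]
      rfl)
    rw [hk, Polynomial.aeval_algHom_apply] at h0
    have h3 : aeval k g = 0 := by
      apply hφ
      rw [h0, map_zero]
    have hdvd := minpoly.dvd F k h3
    have hle := Polynomial.natDegree_le_of_dvd hdvd hg
    have hd := minpoly.degree_dvd (K := F) (L := L) (x := k) (Algebra.IsIntegral.isIntegral k)
    rw [hfin] at hd
    have hd1 : (minpoly F k).natDegree = 1 := by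
      rcases (Nat.dvd_prime hr).mp hd with h | h
      · exact h
      · omega
    obtain ⟨s, hs⟩ := minpoly.natDegree_eq_one_iff.mp hd1
    refine ⟨s, ?_⟩
    rw [hk, ← hs, AlgHom.commutes, Algebra.algebraMap_eq_smul_one]
  · exfalso
    -- the Dedekind case
    have hord : orderOf αE = r := by
      have hdvd : orderOf αE ∣ Nat.card (L ≃ₐ[F] L) := orderOf_dvd_natCard αE
      rw [IsGalois.card_aut_eq_finrank, hfin] at hdvd
      rcases (Nat.dvd_prime hr).mp hdvd with h | h
      · exact absurd (orderOf_eq_one_iff.mp h) h1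
      · exact h
    have hpow : ∀ (i : ℕ) (a : L), (y : Mt) ^ i * φ a = φ ((αE ^ i) a) * (y : Mt) ^ i := by
      intro i
      induction i with
      | zero => intro a; simp
      | succ i ih =>
        intro a
        rw [pow_succ, Matrix.mul_assoc, hαE', ← Matrix.mul_assoc, ih, Matrix.mul_assoc, ← pow_succ, pow_succ αE]
        rfl
    obtain ⟨v, hv⟩ := exists_ne_zero_vec (ι := ι) (F := F) hc hcr
    have hκ : ∀ i : ℕ, ∃ κ, φ κ *ᵥ v = (y : Mt) ^ i *ᵥ v := fun i => exists_mulVec_eq φ hc hv _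
    choose κ hκ using hκ
    have hκ0 : ∀ i, κ i ≠ 0 := by
      intro i h
      have h2 := hκ i
      rw [h, map_zero, Matrix.zero_mulVec] at h2
      apply hv
      have h3 : ((y ^ i : GL ι F) : Mt) = (y : Mt) ^ i := by simp
      have h4 : (((y ^ i)⁻¹ : GL ι F) : Mt) *ᵥ ((y : Mt) ^ i *ᵥ v) = v := by
        rw [Matrix.mulVec_mulVec, ← h3, Units.inv_mul, Matrix.one_mulVec]
      rw [← h4, ← h2, Matrix.mulVec_zero]
    have hsum : ∀ a : L, ∑ i : Fin r, (g.coeff i • κ i) * (αE ^ (i : ℕ)) a = 0 := by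
      intro a
      have h5 : (∑ i : Fin r, g.coeff i • ((y : Mt) ^ (i : ℕ))) *ᵥ (φ a *ᵥ v) = 0 := by
        rw [aeval_eq_sum_range' hdeg, ← Fin.sum_univ_eq_sum_range (fun i => g.coeff i • (y : Mt) ^ i)] at h0
        rw [h0, Matrix.zero_mulVec]
      have h6 : (∑ i : Fin r, g.coeff i • ((y : Mt) ^ (i : ℕ))) *ᵥ (φ a *ᵥ v) =
          φ (∑ i : Fin r, (g.coeff i • κ i) * (αE ^ (i : ℕ)) a) *ᵥ v := by
        rw [Matrix.sum_mulVec, map_sum, Matrix.sum_mulVec]
        apply Finset.sum_congr rfl
        intro i _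
        rw [Matrix.smul_mulVec, Matrix.mulVec_mulVec, hpow, ← Matrix.mulVec_mulVec, ← hκ, Matrix.mulVec_mulVec,
          ← map_mul, mul_comm, smul_mul_assoc, map_smul, Matrix.smul_mulVec]
      rw [h6] at h5
      by_contra hne
      exact mulVec_ne_zero φ hne hv h5
    -- Dedekind
    let f : Fin r → (L →* L) := fun i => ((αE ^ (i : ℕ) : L ≃ₐ[F] L) : L →* L)
    have hfi : Function.Injective f := by
      intro i j hij
      have h7 : (αE ^ (i : ℕ) : L ≃ₐ[F] L) = αE ^ (j : ℕ) := by
        ext a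
        exact DFunLike.congr_fun hij a
      have hinj := pow_injOn_Iio_orderOf (x := αE)
      have := hinj (by simp [hord]) (by simp [hord]) h7
      exact Fin.ext this
    have hli := (linearIndependent_monoidHom L L).comp f hfi
    rw [Fintype.linearIndependent_iff] at hli
    have hz := hli (fun i => g.coeff i • κ i) (by
      funext a
      have := hsum a
      simp only [Finset.sum_apply, Pi.smul_apply, Function.comp, f, smul_eq_mul, Pi.zero_apply]
      exact this)
    apply hg
    ext i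
    simp only [coeff_zero]
    by_cases hi : i < r
    · have h8 := hz ⟨i, hi⟩
      rcases smul_eq_zero.mp h8 with h9 | h9
      · exact h9
      · exact absurd h9 (hκ0 _)
    · exact Polynomial.coeff_eq_zero_of_natDegree_lt (by omega)

/-- A Frobenius element in the normalizer. -/
theorem exists_frob [Finite F] {K : Subalgebra F Mt} {r : ℕ} (hr2 : 2 ≤ r)
    (hKφ : ∀ k, k ∈ K ↔ ∃ a, φ a = k) (hfin : finrank F L = r)
    (hc : finrank F L = Fintype.card ι) :
    ∃ y : GL ι F, y ∈ subalgebraNormalizer K ∧ (y : Mt) ^ r = 1 ∧ ∀ s : F, (y : Mt) ≠ s • 1 := by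
  classical
  have hcr : finrank F L ≠ 0 := by omega
  haveI : FiniteDimensional F L := Module.finite_of_finrank_pos (by omega)
  haveI : Finite L := Module.finite_of_finite F
  haveI : Fintype F := Fintype.ofFinite F
  haveI : Fintype L := Fintype.ofFinite L
  obtain ⟨v, hv⟩ := exists_ne_zero_vec (ι := ι) (F := F) hc hcr
  let Θ := evalEquiv φ hc hv
  have hΘ : ∀ a, Θ a = φ a *ᵥ v := evalEquiv_apply φ hc hv
  let fr : L ≃ₐ[F] L := FiniteField.frobeniusAlgEquivOfAlgebraic F L
  have hfr : ∀ a, fr a = a ^ Fintype.card F := fun a => by simp [fr]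
  let Y : (ι → F) ≃ₗ[F] (ι → F) := (Θ.symm.trans fr.toLinearEquiv).trans Θ
  have hY : ∀ a, Y (Θ a) = Θ (fr a) := by
    intro a
    simp [Y]
  have hYφ : ∀ (a : L) (u : ι → F), Y (φ a *ᵥ u) = φ (fr a) *ᵥ Y u := by
    intro a u
    obtain ⟨b, rfl⟩ := Θ.surjective u
    have h1 : φ a *ᵥ Θ b = Θ (a * b) := by
      rw [hΘ, hΘ, map_mul, Matrix.mulVec_mulVec]
    rw [h1, hY, hY, map_mul, hΘ, hΘ, map_mul, Matrix.mulVec_mulVec]
  have hrel : ∀ a, (glOfEquiv Y : Mt) * φ a = φ (fr a) * (glOfEquiv Y : Mt) := fun a =>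
    conj_of_equiv Y (φ a) (φ (fr a)) (hYφ a)
  set y := glOfEquiv Y with hy
  have hyy : (y : Mt) * ((y⁻¹ : GL ι F) : Mt) = 1 := Units.mul_inv y
  have hyy' : ((y⁻¹ : GL ι F) : Mt) * (y : Mt) = 1 := Units.inv_mul y
  have hconj : ∀ a, (y : Mt) * φ a * ((y⁻¹ : GL ι F) : Mt) = φ (fr a) := by
    intro a
    rw [hrel, Matrix.mul_assoc, hyy, Matrix.mul_one]
  refine ⟨y, ?_, ?_, ?_⟩
  · intro k
    constructor
    · intro hk
      obtain ⟨a, rfl⟩ := (hKφ k).mp hk
      rw [hconj]
      exact (hKφ _).mpr ⟨_, rfl⟩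
    · intro hk
      obtain ⟨b, hb⟩ := (hKφ _).mp hk
      obtain ⟨a, rfl⟩ := fr.surjective b
      rw [← hconj] at hb
      have : k = φ a := by
        have e1 : ((y⁻¹ : GL ι F) : Mt) * ((y : Mt) * φ a * ((y⁻¹ : GL ι F) : Mt)) * (y : Mt) = φ a := by
          calc _ = (((y⁻¹ : GL ι F) : Mt) * (y : Mt)) * φ a * (((y⁻¹ : GL ι F) : Mt) * (y : Mt)) := by
                  simp only [Matrix.mul_assoc]
            _ = φ a := by rw [hyy', Matrix.one_mul, Matrix.mul_one]
        have e2 : ((y⁻¹ : GL ι F) : Mt) * ((y : Mt) * k * ((y⁻¹ : GL ι F) : Mt)) * (y : Mt) = k := by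
          calc _ = (((y⁻¹ : GL ι F) : Mt) * (y : Mt)) * k * (((y⁻¹ : GL ι F) : Mt) * (y : Mt)) := by
                  simp only [Matrix.mul_assoc]
            _ = k := by rw [hyy', Matrix.one_mul, Matrix.mul_one]
        rw [← e2, ← hb, e1]
      rw [this]
      exact (hKφ _).mpr ⟨_, rfl⟩
  · -- `y ^ r = 1`
    have hpow : ∀ (i : ℕ) (a : L), (y : Mt) ^ i *ᵥ Θ a = Θ ((fr ^ i) a) := by
      intro i
      induction i with
      | zero => intro a; simp
      | succ i ih =>
        intro a
        rw [pow_succ', ← Matrix.mulVec_mulVec, ih, hy, glOfEquiv_mulVec, hY, pow_succ']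
        rfl
    have hfrr : fr ^ r = 1 := by
      have := pow_card_eq_one' (x := fr)
      rwa [IsGalois.card_aut_eq_finrank, hfin] at this
    apply Matrix.ext_of_mulVec_single
    intro i
    obtain ⟨a, ha⟩ := Θ.surjective (Pi.single i 1)
    rw [← ha, hpow, hfrr]
    simp
  · intro s hs
    have hne' : Nonempty ι := by
      rw [← Fintype.card_pos_iff, ← hc]; omega
    obtain ⟨i⟩ := hne'
    have hs0 : s ≠ 0 := by
      rintro rfl
      rw [zero_smul] at hs
      have := Units.mul_inv y
      rw [hs, Matrix.zero_mul] at this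
      have h2 := congrFun (congrFun this i) i
      simp at h2
    have hfix : ∀ a, fr a = a := by
      intro a
      have h3 := hrel a
      rw [hy] at hs
      rw [hs, Matrix.smul_mul, Matrix.mul_smul, Matrix.one_mul, Matrix.mul_one] at h3
      have h4 : φ a = φ (fr a) := smul_right_injective _ hs0 h3
      haveI : Nonempty ι := ⟨i⟩
      have hφinj : Function.Injective φ := (φ : L →+* Mt).injective
      exact (hφinj h4).symm
    -- counting
    obtain ⟨γ, hγ⟩ := IsCyclic.exists_generator (α := Lˣ)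
    have hγ1 : (γ : L) ^ Fintype.card F = γ := by
      rw [← hfr, hfix]
    have hq : 2 ≤ Fintype.card F := Fintype.one_lt_card
    have hγ2 : γ ^ (Fintype.card F - 1) = 1 := by
      apply Units.ext
      have h6 : (γ : L) ^ (Fintype.card F - 1) * γ = 1 * γ := by
        rw [← pow_succ, one_mul, Nat.sub_add_cancel (by omega), hγ1]
      have := mul_right_cancel₀ γ.ne_zero h6
      simpa using this
    have hord := orderOf_dvd_of_pow_eq_one hγ2
    rw [orderOf_eq_card_of_forall_mem_zpowers hγ, Nat.card_eq_fintype_card, Fintype.card_units,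
      Module.card_eq_pow_finrank (K := F) (V := L), hfin] at hord
    have h7 := Nat.le_of_dvd (by omega) hord
    have h8 : Fintype.card F ^ 2 ≤ Fintype.card F ^ r := Nat.pow_le_pow_right (by omega) hr2
    have h9 : Fintype.card F ^ r ≤ Fintype.card F := by
      have : 1 ≤ Fintype.card F ^ r := Nat.one_le_pow _ _ (by omega)
      omega
    nlinarith

end model

end Cfsg.Agent.Lib.FieldModel
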