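import Mathlib
import Cfsg.Prelude.Def_GeometricClasses
import Cfsg.Agent.Lib.ExtA
import Cfsg.Agent.Lib.ExtB
import Cfsg.Agent.Lib.ExtC
import Cfsg.Agent.Lib.ExtD
import Cfsg.Agent.Lib.ExtE
import Cfsg.Agent.Lib.FieldModel
import Cfsg.Agent.Lib.ClassicalSL

set_option autoImplicit false
set_option linter.unusedSectionVars false
set_option linter.unusedSimpArgs false
set_option linter.unusedVariables false
set_option linter.style.haveILetI false

namespace Cfsg.Agent.Lib.ExtF

open Module Matrix Cfsg.Geo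
open Cfsg.Agent.Lib.ExtA Cfsg.Agent.Lib.ExtB Cfsg.Agent.Lib.ExtC Cfsg.Agent.Lib.ExtD
  Cfsg.Agent.Lib.ExtE

section abs

variable {F L V : Type*} [Field F] [Field L] [Algebra F L]
  [AddCommGroup V] [Module L V] [Module F V] [IsScalarTower F L V]
  [Finite F] [Module.Finite F L] [Module.Finite L V] [Module.Finite F V]

theorem core_tr (hr : (finrank F L).Prime) (hm : 2 ≤ finrank L V) {X : Subgroup (V ≃ₗ[F] V)}
    (hX : HH L X) {x : V ≃ₗ[F] V} (hxX : x ∈ X) (hS : ¬ Semi (L := L) x) {φ : Module.Dual F V} {v : V}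
    (hφ : φ v = 0) : LinearEquiv.transvection hφ ∈ X := by
  have h1 : ∃ (b : V) (ψ : V →ₗ[L] L) (hb : ψ b = 0), b ≠ 0 ∧ ψ ≠ 0 ∧
      ∃ (p2 : L) (π2 : L →ₗ[F] F), p2 ≠ 0 ∧ π2 ≠ 0 ∧ rt hb (ro p2 π2) ∈ X := by
    by_cases hcase : 3 ≤ finrank L V ∨ 3 ≤ finrank F L
    · exact rank_one_main hr hm hcase hX hxX hS
    · push Not at hcase
      have h2 := hr.two_le
      exact rank_one_22 (by omega) (by omega) hX hxX hS
  obtain ⟨b, ψ, hb, hb0, hψ0, p2, π2, hp, hπ, hro⟩ := h1
  have htop := SS_eq_top hr hX hb0 hψ0 hb hp hπ hro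
  exact all_tr hX hm (fun hv0 hΨ0 hv f => all_rt hX hm hb0 hψ0 hb htop hv0 hΨ0 hv f) hφ

theorem exists_not_semi (hr : (finrank F L).Prime) (hm : 2 ≤ finrank L V) :
    ∃ (φ : Module.Dual F V) (v : V) (hφ : φ v = 0), ¬ Semi (L := L) (LinearEquiv.transvection hφ) := by
  have : Nontrivial V := Module.nontrivial_of_finrank_pos (R := L) (by omega)
  obtain ⟨v, hv⟩ := exists_ne (0 : V)
  obtain ⟨z, hz⟩ := exists_not_mem_span (L := L) hm v
  obtain ⟨ψ, hψ, hψz⟩ := exists_sep_pair hz
  obtain ⟨R, hR⟩ := exists_retr (F := F) (L := L)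
  have hR1 : R 1 = 1 := by simpa using hR 1
  let φ : Module.Dual F V := R ∘ₗ ψ.restrictScalars F
  have hφa : ∀ y, φ y = R (ψ y) := fun y => rfl
  have hφ : φ v = 0 := by rw [hφa, hψ, map_zero]
  refine ⟨φ, v, hφ, ?_⟩
  intro hS
  obtain ⟨θ, hθ⟩ := exists_not_alg (F := F) (L := L) hr
  obtain ⟨a', ha'⟩ := hS θ
  have h1 := ha' v
  rw [LinearEquiv.transvection.apply, LinearEquiv.transvection.apply, hφ] at h1
  have h2 : φ (θ • v) = 0 := by rw [hφa, map_smul, hψ]; simp
  rw [h2] at h1
  simp only [zero_smul, add_zero] at h1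
  have h3 : θ = a' := by
    have h4 : (θ - a') • v = 0 := by rw [sub_smul, h1, sub_self]
    exact sub_eq_zero.mp ((smul_eq_zero.mp h4).resolve_right hv)
  subst h3
  have h5 := ha' z
  rw [LinearEquiv.transvection.apply, LinearEquiv.transvection.apply, hφa, hφa, map_smul, hψz,
    smul_eq_mul, mul_one, hR1, one_smul, smul_add] at h5
  have h6 : R θ • v = θ • v := add_left_cancel h5
  apply hθ (R θ)
  have h7 : (algebraMap F L (R θ) - θ) • v = 0 := by
    rw [sub_smul, algebraMap_smul, h6, sub_self]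
  exact sub_eq_zero.mp ((smul_eq_zero.mp h7).resolve_right hv)

theorem exists_toF_det (hm : 2 ≤ finrank L V) (c : F) (hc : c ≠ 0) :
    ∃ h : V ≃ₗ[L] V, Algebra.norm F ((LinearEquiv.det h : Lˣ) : L) = c := by
  have : Nontrivial V := Module.nontrivial_of_finrank_pos (R := L) (by omega)
  obtain ⟨v, hv⟩ := exists_ne (0 : V)
  obtain ⟨z, hz⟩ := exists_not_mem_span (L := L) hm v
  obtain ⟨ψ, hψ, hψz⟩ := exists_sep_pair hz
  have hψ0 : ψ ≠ 0 := by
    rintro rfl
    simp at hψz
  obtain ⟨z', β0, h1, h2, h4⟩ := exists_frame hv hψ0 hψ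
  haveI : Finite L := Module.finite_of_finite F
  haveI : Fintype F := Fintype.ofFinite F
  haveI : Fintype L := Fintype.ofFinite L
  obtain ⟨a, ha⟩ := FiniteField.norm_surjective F L c
  have ha0 : a ≠ 0 := by
    rintro rfl
    apply hc
    rw [← ha]
    exact Algebra.norm_eq_zero_iff.mpr rfl
  refine ⟨He h1 h2 hψ h4 ha0 one_ne_zero, ?_⟩
  rw [He_det, mul_one, ha]

end abs

universe u

section mat

variable {F : Type u} [Field F] [Finite F] {n : ℕ} {L : Type u} [Field L] [Algebra F L]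
  [Module L (Fin n → F)] [IsScalarTower F L (Fin n → F)] [Module.Finite F L]
  [Module.Finite L (Fin n → F)]
  {K : Subalgebra F (Matrix (Fin n) (Fin n) F)} {φ : L →ₐ[F] Matrix (Fin n) (Fin n) F}

/-- The identification with linear equivalences. -/
noncomputable def Th (n : ℕ) (F : Type u) [Field F] : GL (Fin n) F ≃* ((Fin n → F) ≃ₗ[F] (Fin n → F)) :=
  Matrix.GeneralLinearGroup.toLin.trans (LinearMap.GeneralLinearGroup.generalLinearEquiv F (Fin n → F))

theorem Th_apply (g : GL (Fin n) F) (v : Fin n → F) :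
    Th n F g v = (g : Matrix (Fin n) (Fin n) F) *ᵥ v := rfl

theorem Th_det (g : GL (Fin n) F) :
    ((LinearEquiv.det (Th n F g) : Fˣ) : F) = Matrix.det (g : Matrix (Fin n) (Fin n) F) := by
  rw [LinearEquiv.coe_det]
  have h : ((Th n F g : (Fin n → F) ≃ₗ[F] (Fin n → F)) : (Fin n → F) →ₗ[F] (Fin n → F)) =
      Matrix.toLin' (g : Matrix (Fin n) (Fin n) F) := by
    ext i j
    rfl
  rw [h, LinearMap.det_toLin']

theorem mem_SL_iff (g : GL (Fin n) F) :
    g ∈ specialLinear (Fin n) F ↔ LinearEquiv.det (Th n F g) = 1 := by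
  rw [specialLinear, MonoidHom.mem_ker, Units.ext_iff, Units.ext_iff, Th_det]
  rfl

theorem mul_eq_of_semi (hsmul : ∀ (a : L) (v : Fin n → F), a • v = φ a *ᵥ v) {g : GL (Fin n) F}
    {a a' : L} (h : ∀ v, Th n F g (a • v) = a' • Th n F g v) :
    (g : Matrix (Fin n) (Fin n) F) * φ a = φ a' * g := by
  apply Matrix.mulVec_injective
  funext v
  rw [← Matrix.mulVec_mulVec, ← Matrix.mulVec_mulVec]
  have := h v
  rwa [Th_apply, Th_apply, hsmul, hsmul] at this

theorem conj_eq_of_semi (hsmul : ∀ (a : L) (v : Fin n → F), a • v = φ a *ᵥ v) {g : GL (Fin n) F}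
    {a a' : L} (h : ∀ v, Th n F g (a • v) = a' • Th n F g v) :
    (g : Matrix (Fin n) (Fin n) F) * φ a * ((g⁻¹ : GL (Fin n) F) : Matrix (Fin n) (Fin n) F) = φ a' := by
  rw [mul_eq_of_semi hsmul h, mul_assoc, Units.mul_inv, mul_one]

theorem semi_iff (hinj : Function.Injective φ) (hmem : ∀ k, k ∈ K ↔ ∃ a, φ a = k)
    (hsmul : ∀ (a : L) (v : Fin n → F), a • v = φ a *ᵥ v) (g : GL (Fin n) F) :
    Semi (L := L) (Th n F g) ↔ g ∈ subalgebraNormalizer K := by
  constructor
  · intro hS
    choose s hs using hS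
    have hconj : ∀ a, (g : Matrix (Fin n) (Fin n) F) * φ a *
        ((g⁻¹ : GL (Fin n) F) : Matrix (Fin n) (Fin n) F) = φ (s a) :=
      fun a => conj_eq_of_semi hsmul (hs a)
    have hcancel : ∀ k k' : Matrix (Fin n) (Fin n) F, (g : Matrix (Fin n) (Fin n) F) * k *
        ((g⁻¹ : GL (Fin n) F) : Matrix (Fin n) (Fin n) F) = (g : Matrix (Fin n) (Fin n) F) * k' *
        ((g⁻¹ : GL (Fin n) F) : Matrix (Fin n) (Fin n) F) → k = k' := by
      intro k k' h
      have h1 := congrArg (fun A => ((g⁻¹ : GL (Fin n) F) : Matrix (Fin n) (Fin n) F) * A *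
        (g : Matrix (Fin n) (Fin n) F)) h
      simpa [mul_assoc, ← Units.val_mul] using h1
    have hsinj : Function.Injective s := by
      intro a b hab
      apply hinj
      apply hcancel
      rw [hconj, hconj, hab]
    haveI : Finite L := Module.finite_of_finite F
    have hssurj : Function.Surjective s := Finite.injective_iff_surjective.mp hsinj
    intro k
    constructor
    · intro hk
      obtain ⟨a, rfl⟩ := (hmem k).mp hk
      rw [hconj, hmem]
      exact ⟨_, rfl⟩
    · intro hk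
      obtain ⟨a', ha'⟩ := (hmem _).mp hk
      obtain ⟨a, rfl⟩ := hssurj a'
      rw [← hconj] at ha'
      rw [hcancel _ _ ha'.symm, hmem]
      exact ⟨a, rfl⟩
  · intro hg a
    have h1 : φ a ∈ K := (hmem _).mpr ⟨a, rfl⟩
    have h2 := (hg (φ a)).mp h1
    obtain ⟨a', ha'⟩ := (hmem _).mp h2
    refine ⟨a', fun v => ?_⟩
    rw [Th_apply, Th_apply, hsmul, hsmul, Matrix.mulVec_mulVec, Matrix.mulVec_mulVec, ha',
      mul_assoc, Units.inv_mul, mul_one]

/-- From `X` containing all transvections to `SL`. -/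
theorem SL_le_of_tr [NeZero n] (hn : 2 ≤ n) {Y : Subgroup (GL (Fin n) F)}
    (hY : ∀ (φ : Module.Dual F (Fin n → F)) (v : Fin n → F) (hφ : φ v = 0),
      (Th n F).symm (LinearEquiv.transvection hφ) ∈ Y) :
    specialLinear (Fin n) F ≤ Y := by
  haveI : Nontrivial (Fin n) := Fin.nontrivial_iff_two_le.mpr hn
  intro g hg
  obtain ⟨g', rfl⟩ := Cfsg.Agent.Lib.ClassicalSL.exists_toGL_eq_of_mem_ker hg
  refine Cfsg.Agent.Lib.ClassicalSL.transvection_induction
    (fun A => Matrix.SpecialLinearGroup.toGL A ∈ Y) ?_ ?_ g'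
  · intro i j hij c
    let φ0 : Module.Dual F (Fin n → F) := c • LinearMap.proj j
    let v0 : Fin n → F := Pi.single i 1
    have h0 : φ0 v0 = 0 := by
      simp [φ0, v0, Pi.single_apply, hij.symm]
    have h1 : Matrix.SpecialLinearGroup.toGL (Matrix.SpecialLinearGroup.transvection hij c) =
        (Th n F).symm (LinearEquiv.transvection h0) := by
      rw [MulEquiv.eq_symm_apply]
      ext1 y
      rw [LinearEquiv.transvection.apply, Th_apply]
      change (Matrix.SpecialLinearGroup.transvection hij c : Matrix (Fin n) (Fin n) F) *ᵥ y = _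
      rw [Matrix.SpecialLinearGroup.transvection_coe, Matrix.add_mulVec, Matrix.one_mulVec,
        Matrix.single_mulVec]
      congr 1
      simp only [φ0, v0, LinearMap.smul_apply, LinearMap.proj_apply, smul_eq_mul]
      funext k
      by_cases hk : k = i
      · subst hk
        simp
      · simp [Pi.single_apply, hk]
    rw [h1]
    exact hY φ0 v0 h0
  · intro A B hA hB
    rw [map_mul]
    exact Y.mul_mem hA hB

end mat

section final

variable {F : Type u} [Field F] [Fintype F] {n : ℕ} {L : Type u} [Field L] [Algebra F L]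
  [Module L (Fin n → F)] [IsScalarTower F L (Fin n → F)] [Module.Finite F L]
  [Module.Finite L (Fin n → F)]
  {K : Subalgebra F (Matrix (Fin n) (Fin n) F)} {φ : L →ₐ[F] Matrix (Fin n) (Fin n) F}

theorem core_Y (hr : (finrank F L).Prime) (hm : 2 ≤ finrank L (Fin n → F)) (hn : 2 ≤ n)
    (hinj : Function.Injective φ) (hmem : ∀ k, k ∈ K ↔ ∃ a, φ a = k)
    (hsmul : ∀ (a : L) (v : Fin n → F), a • v = φ a *ᵥ v) {Y : Subgroup (GL (Fin n) F)}
    (hY : subalgebraNormalizer K ⊓ specialLinear (Fin n) F ≤ Y) {y : GL (Fin n) F} (hyY : y ∈ Y)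
    (hyN : y ∉ subalgebraNormalizer K) : specialLinear (Fin n) F ≤ Y := by
  let X : Subgroup ((Fin n → F) ≃ₗ[F] (Fin n → F)) := Y.comap (Th n F).symm.toMonoidHom
  have hXmem : ∀ e, e ∈ X ↔ (Th n F).symm e ∈ Y := fun e => Iff.rfl
  have hX : HH L X := by
    intro g hg hd
    rw [hXmem]
    apply hY
    refine Subgroup.mem_inf.mpr ⟨?_, ?_⟩
    · rw [← semi_iff hinj hmem hsmul]
      simpa using hg
    · rw [mem_SL_iff]
      simpa using hd
  have hxX : Th n F y ∈ X := by
    rw [hXmem]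
    simpa using hyY
  have hS : ¬ Semi (L := L) (Th n F y) := fun h => hyN ((semi_iff hinj hmem hsmul y).mp h)
  haveI : NeZero n := ⟨by omega⟩
  exact SL_le_of_tr hn (fun φ v hφ => (hXmem _).mp (core_tr hr hm hX hxX hS hφ))

theorem exists_SL_not_N (hr : (finrank F L).Prime) (hm : 2 ≤ finrank L (Fin n → F))
    (hinj : Function.Injective φ) (hmem : ∀ k, k ∈ K ↔ ∃ a, φ a = k)
    (hsmul : ∀ (a : L) (v : Fin n → F), a • v = φ a *ᵥ v) :
    ∃ g : GL (Fin n) F, g ∈ specialLinear (Fin n) F ∧ g ∉ subalgebraNormalizer K := by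
  obtain ⟨φ0, v, hφ0, hS⟩ := exists_not_semi (F := F) (L := L) (V := Fin n → F) hr hm
  refine ⟨(Th n F).symm (LinearEquiv.transvection hφ0), ?_, ?_⟩
  · rw [mem_SL_iff]
    simp only [MulEquiv.apply_symm_apply]
    exact LinearEquiv.transvection.det_eq_one hφ0
  · rw [← semi_iff hinj hmem hsmul]
    simpa using hS

theorem main_of_module (hr : (finrank F L).Prime) (hm : 2 ≤ finrank L (Fin n → F)) (hn : 2 ≤ n)
    (hinj : Function.Injective φ) (hmem : ∀ k, k ∈ K ↔ ∃ a, φ a = k)
    (hsmul : ∀ (a : L) (v : Fin n → F), a • v = φ a *ᵥ v) :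
    IsCoatom (subalgebraNormalizer K) ∧
      IsMaximalIn (specialLinear (Fin n) F) (subalgebraNormalizer K ⊓ specialLinear (Fin n) F) := by
  obtain ⟨g0, hg0, hg0N⟩ := exists_SL_not_N hr hm hinj hmem hsmul
  constructor
  · constructor
    · intro h
      apply hg0N
      rw [h]
      trivial
    · intro Y hY
      obtain ⟨-, y, hyY, hyN⟩ := SetLike.lt_iff_le_and_exists.mp hY
      have hSL := core_Y hr hm hn hinj hmem hsmul (inf_le_left.trans hY.le) hyY hyN
      rw [eq_top_iff]
      intro g _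
      have hd : Matrix.det (g : Matrix (Fin n) (Fin n) F) ≠ 0 := by
        have := (Matrix.GeneralLinearGroup.det g).ne_zero
        simpa using this
      obtain ⟨h, hh⟩ := exists_toF_det (F := F) (L := L) (V := Fin n → F) hm _ hd
      let n0 : GL (Fin n) F := (Th n F).symm (toF (F := F) h)
      have hn0 : n0 ∈ subalgebraNormalizer K := by
        rw [← semi_iff hinj hmem hsmul]
        simp only [n0, MulEquiv.apply_symm_apply]
        exact semi_toF h
      have hn0d : Matrix.det (n0 : Matrix (Fin n) (Fin n) F) = Matrix.det (g : Matrix (Fin n) (Fin n) F) := by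
        rw [← Th_det]
        simp only [n0, MulEquiv.apply_symm_apply]
        rw [det_toF, hh]
      have h1 : n0⁻¹ * g ∈ specialLinear (Fin n) F := by
        rw [specialLinear, MonoidHom.mem_ker, Units.ext_iff]
        have h2 : ((Matrix.GeneralLinearGroup.det (n0⁻¹ * g) : Fˣ) : F) =
            Matrix.det ((n0⁻¹ * g : GL (Fin n) F) : Matrix (Fin n) (Fin n) F) := rfl
        rw [h2, Units.val_mul, Matrix.det_mul, ← hn0d, ← Matrix.det_mul, ← Units.val_mul,
          inv_mul_cancel]
        simp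
      have h3 : g = n0 * (n0⁻¹ * g) := by group
      rw [h3]
      exact Y.mul_mem (hY.le hn0) (hSL h1)
  · constructor
    · rw [SetLike.lt_iff_le_and_exists]
      refine ⟨inf_le_right, g0, hg0, fun h => hg0N h.1⟩
    · intro M hM1 hM2
      by_cases hMN : M ≤ subalgebraNormalizer K
      · left
        exact le_antisymm (le_inf hMN hM2) hM1
      · right
        obtain ⟨y, hyM, hyN⟩ := SetLike.not_le_iff_exists.mp hMN
        exact le_antisymm hM2 (core_Y hr hm hn hinj hmem hsmul hM1 hyM hyN)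

end final

theorem main {F : Type u} [Field F] [Fintype F] (n r : ℕ) (hr : r.Prime) (hrn : r ∣ n) (hlt : r < n)
    (K : Subalgebra F (Matrix (Fin n) (Fin n) F)) (hK : IsFieldSubalgebra r K) :
    IsCoatom (subalgebraNormalizer K) ∧
      IsMaximalIn (specialLinear (Fin n) F) (subalgebraNormalizer K ⊓ specialLinear (Fin n) F) := by
  obtain ⟨L, _, _, φ, hinj, hmem, hfr⟩ := Cfsg.Agent.Lib.FieldModel.exists_model hr.ne_zero hK
  letI modL : Module L (Fin n → F) :=
    { smul := fun e v => (φ e) *ᵥ v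
      one_smul := fun v => by change (φ 1) *ᵥ v = v; simp
      mul_smul := fun a b v => by
        change (φ (a * b)) *ᵥ v = (φ a) *ᵥ ((φ b) *ᵥ v)
        simp [Matrix.mulVec_mulVec]
      smul_zero := fun a => Matrix.mulVec_zero _
      smul_add := fun a v w => Matrix.mulVec_add _ _ _
      add_smul := fun a b v => by
        change (φ (a + b)) *ᵥ v = (φ a) *ᵥ v + (φ b) *ᵥ v
        simp [Matrix.add_mulVec]
      zero_smul := fun v => by
        change (φ 0) *ᵥ v = 0
        simp }
  have hsmul : ∀ (a : L) (v : Fin n → F), a • v = φ a *ᵥ v := fun _ _ => rfl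
  haveI tower : IsScalarTower F L (Fin n → F) := ⟨fun c e v => by
    rw [hsmul, hsmul, map_smul, Matrix.smul_mulVec]⟩
  haveI : Module.Finite F L := Module.finite_of_finrank_pos (by rw [hfr]; exact hr.pos)
  haveI : Module.Finite L (Fin n → F) := Module.Finite.of_restrictScalars_finite F L (Fin n → F)
  have hprod : finrank F L * finrank L (Fin n → F) = n := by
    rw [Module.finrank_mul_finrank]
    simp
  rw [hfr] at hprod
  have hm : 2 ≤ finrank L (Fin n → F) := by
    by_contra h
    have h1 : finrank L (Fin n → F) = 0 ∨ finrank L (Fin n → F) = 1 := by omega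
    rcases h1 with h1 | h1
    · rw [h1] at hprod
      have := hr.pos
      omega
    · rw [h1] at hprod
      omega
  have hn : 2 ≤ n := by
    have := hr.two_le
    omega
  exact main_of_module (by rw [hfr]; exact hr) hm hn hinj hmem hsmul

end Cfsg.Agent.Lib.ExtF
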