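import Mathlib
import Cfsg.Agent.Lib.CoprimeHyper

/-!
# Faithful modules of extraspecial groups: the decomposition lemma
-/

set_option autoImplicit false

namespace Cfsg.Agent.Lib.ExtraBound

open Cfsg.Agent.Lib.CoprimeHyper

section decomposition

variable {W : Type*} [CommGroup W] [Finite W] {p : ℕ} [hp : Fact p.Prime]

/-- The subgroup of fixed points of an automorphism. -/
def fixS (φ : MulAut W) : Subgroup W where
  carrier := {v | φ v = v}
  one_mem' := map_one φ
  mul_mem' := by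
    intro a b ha hb
    simp only [Set.mem_ofPred_eq] at *
    rw [map_mul, ha, hb]
  inv_mem' := by
    intro a ha
    simp only [Set.mem_ofPred_eq] at *
    rw [map_inv, ha]

omit [Finite W] in
theorem mem_fixS {φ : MulAut W} {v : W} : v ∈ fixS φ ↔ φ v = v := Iff.rfl

/-- The two parameter family. -/
def PP (X Z : MulAut W) (a b : ZMod p) : MulAut W := X ^ a.val * Z ^ b.val

omit [Finite W] in
theorem PP_mul {X Z : MulAut W} (hX : X ^ p = 1) (hZ : Z ^ p = 1) (hXZ : Commute X Z) (a b c d : ZMod p) :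
    PP X Z a b * PP X Z c d = PP X Z (a + c) (b + d) := by
  unfold PP
  rw [pow_val_add hX, pow_val_add hZ]
  have h1 : Commute (Z ^ b.val) (X ^ c.val) := (hXZ.symm.pow_pow _ _)
  calc X ^ a.val * Z ^ b.val * (X ^ c.val * Z ^ d.val)
      = X ^ a.val * (Z ^ b.val * X ^ c.val) * Z ^ d.val := by group
    _ = X ^ a.val * (X ^ c.val * Z ^ b.val) * Z ^ d.val := by rw [h1.eq]
    _ = _ := by group

omit [Finite W] in
theorem PP_zero_zero (X Z : MulAut W) : PP X Z (0 : ZMod p) 0 = 1 := by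
  simp [PP, ZMod.val_zero]

omit [Finite W] in
theorem PP_one_zero (X Z : MulAut W) : PP X Z (1 : ZMod p) 0 = X := by
  simp [PP, ZMod.val_zero, ZMod.val_one]

omit [Finite W] in
theorem PP_apply_mul {X Z : MulAut W} (hX : X ^ p = 1) (hZ : Z ^ p = 1) (hXZ : Commute X Z) (a b c d : ZMod p)
    (v : W) : PP X Z a b (PP X Z c d v) = PP X Z (a + c) (b + d) v := by
  rw [← PP_mul hX hZ hXZ]
  rfl

/-- The projection. -/
noncomputable def ee (X Z : MulAut W) (l : ZMod p) (v : W) : W := ∏ j : ZMod p, PP X Z j (j * l) v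

omit [Finite W] in
theorem ee_mem {X Z : MulAut W} (hX : X ^ p = 1) (hZ : Z ^ p = 1) (hXZ : Commute X Z) (l : ZMod p) (v : W) :
    ee X Z l v ∈ fixS (PP X Z 1 l) := by
  rw [mem_fixS]
  unfold ee
  rw [map_prod]
  refine Fintype.prod_equiv (Equiv.addLeft (1 : ZMod p)) _ _ ?_
  intro j
  rw [PP_apply_mul hX hZ hXZ]
  simp only [Equiv.coe_addLeft]
  congr 2
  ring

omit [Finite W] in
theorem normOf_eq {X Z : MulAut W} (v : W) :
    normOf p Z v = ∏ b : ZMod p, PP X Z 0 b v := by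
  unfold normOf
  refine Finset.prod_congr rfl fun b _ => ?_
  simp [PP, ZMod.val_zero]

omit [Finite W] in
/-- The sum over `b` of `PP j b` vanishes. -/
theorem prod_PP_eq_one {X Z : MulAut W} (hX : X ^ p = 1) (hZ : Z ^ p = 1) (hXZ : Commute X Z)
    (hN : ∀ v, normOf p Z v = 1) (j : ZMod p) (v : W) : ∏ b : ZMod p, PP X Z j b v = 1 := by
  have h1 : ∀ b : ZMod p, PP X Z j b v = PP X Z 0 b (PP X Z j 0 v) := by
    intro b
    rw [PP_apply_mul hX hZ hXZ]
    simp
  rw [Finset.prod_congr rfl (fun b _ => h1 b), ← normOf_eq, hN]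

omit [Finite W] in
theorem prod_ee {X Z : MulAut W} (hX : X ^ p = 1) (hZ : Z ^ p = 1) (hXZ : Commute X Z)
    (hN : ∀ v, normOf p Z v = 1) (v : W) : ∏ l : ZMod p, ee X Z l v = v ^ p := by
  unfold ee
  rw [Finset.prod_comm]
  rw [← Finset.mul_prod_erase _ _ (Finset.mem_univ (0 : ZMod p))]
  have h0 : (∏ l : ZMod p, PP X Z (0 : ZMod p) (0 * l) v) = v ^ p := by
    simp only [zero_mul, PP_zero_zero]
    simp [ZMod.card]
  have hrest : ∀ j ∈ Finset.univ.erase (0 : ZMod p), (∏ l : ZMod p, PP X Z j (j * l) v) = 1 := by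
    intro j hj
    have hj0 : j ≠ 0 := (Finset.mem_erase.1 hj).1
    rw [← prod_PP_eq_one hX hZ hXZ hN j v]
    exact Fintype.prod_equiv (Equiv.mulLeft₀ j hj0) _ _ (fun i => rfl)
  rw [h0, Finset.prod_eq_one hrest, mul_one]

omit [Finite W] in
theorem PP_of_mem {X Z : MulAut W} (hX : X ^ p = 1) (hZ : Z ^ p = 1) (hXZ : Commute X Z) {l : ZMod p} {u : W}
    (hu : u ∈ fixS (PP X Z 1 l)) (k : ZMod p) : PP X Z k (k * l) u = u := by
  have key : ∀ n : ℕ, PP X Z (n : ZMod p) ((n : ZMod p) * l) u = u := by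
    intro n
    induction n with
    | zero => simp [PP_zero_zero]
    | succ n ih =>
      have h1 := PP_apply_mul hX hZ hXZ ((n : ZMod p)) ((n : ZMod p) * l) 1 l u
      rw [mem_fixS.mp hu, ih] at h1
      push_cast
      rw [add_mul, one_mul]
      exact h1.symm
  have := key k.val
  rwa [ZMod.natCast_zmod_val] at this

omit [Finite W] in
/-- The projection of an element of `U_l`. -/
theorem ee_of_mem {X Z : MulAut W} (hX : X ^ p = 1) (hZ : Z ^ p = 1) (hXZ : Commute X Z)
    (hN : ∀ v, normOf p Z v = 1) {l : ZMod p} {u : W} (hu : u ∈ fixS (PP X Z 1 l)) (m : ZMod p) :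
    ee X Z m u = if m = l then u ^ p else 1 := by
  unfold ee
  have h1 : ∀ j : ZMod p, PP X Z j (j * m) u = PP X Z 0 (j * (m - l)) u := by
    intro j
    have h2 := PP_apply_mul hX hZ hXZ 0 (j * (m - l)) j (j * l) u
    rw [PP_of_mem hX hZ hXZ hu] at h2
    rw [h2]
    congr 2
    · ring
    · ring
  rw [Finset.prod_congr rfl (fun j _ => h1 j)]
  by_cases hml : m = l
  · subst hml
    simp [PP_zero_zero, ZMod.card]
  · rw [if_neg hml]
    have hne : m - l ≠ 0 := sub_ne_zero.mpr hml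
    rw [← prod_PP_eq_one hX hZ hXZ hN 0 u]
    exact Fintype.prod_equiv (Equiv.mulRight₀ (m - l) hne) _ _ (fun i => rfl)

/-- `ee` is a homomorphism in `v`. -/
theorem ee_mul (X Z : MulAut W) (l : ZMod p) (v w : W) : ee X Z l (v * w) = ee X Z l v * ee X Z l w := by
  unfold ee
  rw [← Finset.prod_mul_distrib]
  refine Finset.prod_congr rfl fun j _ => ?_
  rw [map_mul]

theorem ee_prod (X Z : MulAut W) (l : ZMod p) (u : ZMod p → W) :
    ee X Z l (∏ i, u i) = ∏ i, ee X Z l (u i) := by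
  have : ee X Z l 1 = 1 := by
    unfold ee
    simp
  exact map_prod (⟨⟨ee X Z l, this⟩, ee_mul X Z l⟩ : W →* W) u Finset.univ

/-- The decomposition of `W`. -/
theorem card_eq_prod {X Z : MulAut W} (hX : X ^ p = 1) (hZ : Z ^ p = 1) (hXZ : Commute X Z)
    (hN : ∀ v, normOf p Z v = 1) {r : ℕ} (hr1 : 1 < r) (hr : ∀ v : W, v ^ r = 1) (hpr : Nat.Coprime p r) :
    Nat.card W = ∏ l : ZMod p, Nat.card (fixS (PP X Z 1 l)) := by
  classical
  obtain ⟨q, -, hq⟩ := Nat.exists_mul_mod_eq_one_of_coprime hpr hr1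
  have hroot : ∀ x : W, (x ^ p) ^ q = x := by
    intro x
    rw [← pow_mul]
    conv_lhs => rw [← Nat.div_add_mod (p * q) r, hq, pow_add, pow_mul, hr, one_pow, one_mul, pow_one]
  have hinj : ∀ u v : W, u ^ p = v ^ p → u = v := by
    intro u v h
    rw [← hroot u, h, hroot v]
  let prodMap : (∀ l : ZMod p, fixS (PP X Z 1 l)) → W := fun u => ∏ l, (u l : W)
  have hee : ∀ (u : ∀ l : ZMod p, fixS (PP X Z 1 l)) (m : ZMod p), ee X Z m (prodMap u) = (u m : W) ^ p := by
    intro u m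
    show ee X Z m (∏ l, (u l : W)) = _
    rw [ee_prod]
    rw [Finset.prod_congr rfl (fun l _ => ee_of_mem hX hZ hXZ hN (u l).2 m)]
    rw [Finset.prod_eq_single m]
    · simp
    · intro b _ hb
      rw [if_neg (Ne.symm hb)]
    · intro h
      exact absurd (Finset.mem_univ m) h
  have hbij : Function.Bijective prodMap := by
    constructor
    · intro u u' h
      funext m
      apply Subtype.ext
      apply hinj
      rw [← hee, ← hee, h]
    · intro v
      refine ⟨fun l => ⟨(ee X Z l v) ^ q, pow_mem (ee_mem hX hZ hXZ l v) q⟩, ?_⟩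
      show ∏ l, (ee X Z l v) ^ q = v
      rw [Finset.prod_pow, prod_ee hX hZ hXZ hN, hroot]
  rw [← Nat.card_pi]
  exact (Nat.card_congr (Equiv.ofBijective prodMap hbij)).symm

/-- Fixed points of a conjugate. -/
theorem card_fixS_conj (Y φ : MulAut W) : Nat.card (fixS (Y * φ * Y⁻¹)) = Nat.card (fixS φ) := by
  have h : fixS (Y * φ * Y⁻¹) = (fixS φ).map Y.toMonoidHom := by
    ext v
    rw [mem_fixS]
    constructor
    · intro hv
      refine ⟨Y⁻¹ v, ?_, by simp⟩
      change Y⁻¹ v ∈ fixS φ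
      rw [mem_fixS]
      have h1 : Y (φ (Y⁻¹ v)) = v := hv
      have h2 := congrArg (Y⁻¹ : MulAut W) h1
      simpa using h2
    · rintro ⟨u, hu, rfl⟩
      rw [SetLike.mem_coe, mem_fixS] at hu
      show Y (φ (Y⁻¹ (Y u))) = Y u
      simp [hu]
  rw [h]
  exact Subgroup.card_map_of_injective Y.injective

/-- All the pieces have the same order, and so `|W| = |C_W(X)|^p`. -/
theorem card_eq_pow {X Y Z : MulAut W} (hX : X ^ p = 1) (hZ : Z ^ p = 1) (hXZ : Commute X Z)
    (hYZ : Commute Y Z) (c : ZMod p) (hc : c ≠ 0) (hY : Y * X * Y⁻¹ = X * Z ^ c.val)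
    (hN : ∀ v, normOf p Z v = 1) {r : ℕ} (hr1 : 1 < r) (hr : ∀ v : W, v ^ r = 1) (hpr : Nat.Coprime p r) :
    Nat.card W = Nat.card (fixS X) ^ p := by
  have hstep : ∀ l : ZMod p, Y * PP X Z 1 l * Y⁻¹ = PP X Z 1 (c + l) := by
    intro l
    have h1 : PP X Z (1 : ZMod p) l = X * Z ^ l.val := by
      simp [PP, ZMod.val_one]
    have h2 : PP X Z (1 : ZMod p) (c + l) = X * Z ^ (c + l).val := by
      simp [PP, ZMod.val_one]
    rw [h1, h2, pow_val_add hZ]
    calc Y * (X * Z ^ l.val) * Y⁻¹ = (Y * X * Y⁻¹) * (Y * Z ^ l.val * Y⁻¹) := by group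
      _ = (X * Z ^ c.val) * (Y * Z ^ l.val * Y⁻¹) := by rw [hY]
      _ = (X * Z ^ c.val) * (Z ^ l.val * Y * Y⁻¹) := by rw [(hYZ.pow_right l.val).eq]
      _ = _ := by group
  have hall : ∀ n : ℕ, Nat.card (fixS (PP X Z 1 ((n : ZMod p) * c))) = Nat.card (fixS X) := by
    intro n
    induction n with
    | zero =>
      simp only [Nat.cast_zero, zero_mul, PP_one_zero]
    | succ n ih =>
      have e : ((n + 1 : ℕ) : ZMod p) * c = c + (n : ZMod p) * c := by
        push_cast
        ring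
      rw [e, ← hstep, card_fixS_conj, ih]
  have hconst : ∀ l : ZMod p, Nat.card (fixS (PP X Z 1 l)) = Nat.card (fixS X) := by
    intro l
    have h1 := hall (l / c).val
    rwa [ZMod.natCast_zmod_val, div_mul_cancel₀ _ hc] at h1
  rw [card_eq_prod hX hZ hXZ hN hr1 hr hpr, Finset.prod_congr rfl (fun l _ => hconst l)]
  simp [ZMod.card]

end decomposition

end Cfsg.Agent.Lib.ExtraBound
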