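import Mathlib
import Cfsg.Agent.Lib.ExtraBound
import Cfsg.Agent.Lib.OddLocalA
import Cfsg.Agent.Lib.Subnormal
import Cfsg.Agent.Lib.CharTwoLocal

/-!
# Faithful modules of extraspecial groups: the induction
-/

set_option autoImplicit false

namespace Cfsg.Agent.Lib.ExtraBound

open Cfsg.Agent.Lib.CoprimeHyper
open scoped commutatorElement

theorem card_eq_pow_group {W : Type*} [Group W] [Finite W] {p r : ℕ} [Fact p.Prime]
    (hc : ∀ a b : W, a * b = b * a) {X Y Z : MulAut W} (hX : X ^ p = 1) (hZ : Z ^ p = 1)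
    (hXZ : Commute X Z) (hYZ : Commute Y Z) (c : ZMod p) (hc0 : c ≠ 0) (hY : Y * X * Y⁻¹ = X * Z ^ c.val)
    (hfpf : ∀ v, Z v = v → v = 1) (hr1 : 1 < r) (hr : ∀ v : W, v ^ r = 1) (hpr : p.Coprime r) :
    Nat.card W = Nat.card {v : W // X v = v} ^ p := by
  letI : CommGroup W := { (inferInstance : Group W) with mul_comm := hc }
  have hN : ∀ v, normOf p Z v = 1 := fun v => hfpf _ (normOf_fixed hZ v)
  exact card_eq_pow hX hZ hXZ hYZ c hc0 hY hN hr1 hr hpr

variable {G : Type*} [Group G]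

/-- The inductive setting. -/
structure Good (p r : ℕ) (T N W : Subgroup G) (z : G) (w : ℕ) : Prop where
  hTp : IsPGroup p T
  hzT : z ∈ T
  hzp : z ^ p = 1
  hzN : z ∉ N
  hNT : N ≤ T
  hcomm : ∀ g ∈ T, ∀ h ∈ T, ⁅g, h⁆ ∈ Subgroup.zpowers z
  hNc : ∀ n ∈ N, ∀ g ∈ T, n * g = g * n
  hzc : ∀ g ∈ T, z * g = g * z
  hZ : ∀ g ∈ T, (∀ h ∈ T, g * h = h * g) → g ∈ N ⊔ Subgroup.zpowers z
  hpow : ∀ g ∈ T, g ^ p ∈ N ⊔ Subgroup.zpowers z
  hcard : Nat.card T = Nat.card (N ⊔ Subgroup.zpowers z : Subgroup G) * p ^ (2 * w)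
  hWn : T ≤ Subgroup.normalizer (W : Set G)
  hWN : ∀ n ∈ N, ∀ v ∈ W, n * v = v * n
  hWz : ∀ v ∈ W, z * v = v * z → v = 1
  hWne : W ≠ ⊥
  hWc : ∀ a ∈ W, ∀ b ∈ W, a * b = b * a
  hWr : ∀ a ∈ W, a ^ r = 1

section basics

variable {p r : ℕ} {T N W : Subgroup G} {z : G} {w : ℕ}

theorem Good.comm_central (h : Good p r T N W z w) {g k t : G} (hg : g ∈ T) (hk : k ∈ T) (ht : t ∈ T) :
    ⁅g, k⁆ * t = t * ⁅g, k⁆ := by
  obtain ⟨m, hm⟩ := Subgroup.mem_zpowers_iff.mp (h.hcomm g hg k hk)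
  rw [← hm]
  exact ((show Commute z t from h.hzc t ht).zpow_left m).eq

theorem Good.comm_mul_right (h : Good p r T N W z w) {x g k : G} (hx : x ∈ T) (hg : g ∈ T) (hk : k ∈ T) :
    ⁅x, g * k⁆ = ⁅x, g⁆ * ⁅x, k⁆ := by
  have e : ⁅x, g * k⁆ = ⁅x, g⁆ * (g * ⁅x, k⁆ * g⁻¹) := by
    simp only [commutatorElement_def]
    group
  rw [e, (h.comm_central hx hk hg : ⁅x, k⁆ * g = g * ⁅x, k⁆).symm]
  group

theorem Good.comm_mul_left (h : Good p r T N W z w) {a b y : G} (ha : a ∈ T) (hb : b ∈ T) (hy : y ∈ T) :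
    ⁅a * b, y⁆ = ⁅a, y⁆ * ⁅b, y⁆ := by
  have e : ⁅a * b, y⁆ = (a * ⁅b, y⁆ * a⁻¹) * ⁅a, y⁆ := by
    simp only [commutatorElement_def]
    group
  rw [e, (h.comm_central hb hy ha : ⁅b, y⁆ * a = a * ⁅b, y⁆).symm]
  have : ⁅b, y⁆ * a * a⁻¹ = ⁅b, y⁆ := by group
  rw [this]
  have h2 : Commute ⁅b, y⁆ ⁅a, y⁆ := by
    exact h.comm_central hb hy (T.mul_mem (T.mul_mem (T.mul_mem ha hy) (T.inv_mem ha)) (T.inv_mem hy))
  exact h2.eq

theorem Good.comm_pow_right (h : Good p r T N W z w) {x y : G} (hx : x ∈ T) (hy : y ∈ T) (j : ℕ) :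
    ⁅x, y ^ j⁆ = ⁅x, y⁆ ^ j := by
  induction j with
  | zero => simp [commutatorElement_def]
  | succ j ih => rw [pow_succ, h.comm_mul_right hx (pow_mem hy j) hy, ih, pow_succ]

theorem Good.comm_pow_left (h : Good p r T N W z w) {x y : G} (hx : x ∈ T) (hy : y ∈ T) (j : ℕ) :
    ⁅x ^ j, y⁆ = ⁅x, y⁆ ^ j := by
  induction j with
  | zero => simp [commutatorElement_def]
  | succ j ih => rw [pow_succ, h.comm_mul_left (pow_mem hx j) hx hy, ih, pow_succ]

theorem Good.hLT (h : Good p r T N W z w) : N ⊔ Subgroup.zpowers z ≤ T :=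
  sup_le h.hNT (by rw [Subgroup.zpowers_le]; exact h.hzT)

variable [Finite G]

theorem Good.hNz (h : Good p r T N W z w) :
    T ≤ Subgroup.normalizer ((Subgroup.zpowers z : Subgroup G) : Set G) := by
  intro n hn
  apply Cfsg.Agent.Lib.Subnormal.mem_normalizer_of_conj_mem
  rintro _ ⟨k, rfl⟩
  have hc : Commute n z := (h.hzc n hn).symm
  refine ⟨k, ?_⟩
  show z ^ k = n * z ^ k * n⁻¹
  rw [(hc.zpow_right k).eq]
  group

/-- Elements of `N ⟨z⟩`. -/
theorem Good.exists_mem_L (h : Good p r T N W z w) {g : G} (hg : g ∈ N ⊔ Subgroup.zpowers z) :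
    ∃ n ∈ N, ∃ i : ℕ, g = n * z ^ i := by
  have hg' : g ∈ ((N ⊔ Subgroup.zpowers z : Subgroup G) : Set G) := hg
  rw [Subgroup.coe_mul_of_left_le_normalizer_right N _ (h.hNT.trans h.hNz)] at hg'
  obtain ⟨n, hn, d, hd, rfl⟩ := hg'
  have hd' : d ∈ Submonoid.powers z := mem_powers_iff_mem_zpowers.mpr hd
  obtain ⟨i, rfl⟩ := hd'
  exact ⟨n, hn, i, rfl⟩

theorem Good.z_ne_one (h : Good p r T N W z w) : z ≠ 1 := by
  rintro rfl
  exact h.hzN N.one_mem

theorem Good.orderOf_z [Fact p.Prime] (h : Good p r T N W z w) : orderOf z = p :=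
  orderOf_eq_prime h.hzp h.z_ne_one

theorem Good.card_zpowers [Fact p.Prime] (h : Good p r T N W z w) : Nat.card (Subgroup.zpowers z) = p := by
  rw [Nat.card_zpowers, h.orderOf_z]

/-- `x` outside `L` has a noncommuting partner. -/
theorem Good.exists_ne_one (h : Good p r T N W z w) {x : G} (hx : x ∈ T)
    (hxL : x ∉ N ⊔ Subgroup.zpowers z) : ∃ y ∈ T, ⁅x, y⁆ ≠ 1 := by
  by_contra hcon
  push Not at hcon
  apply hxL
  apply h.hZ x hx
  intro k hk
  exact commutatorElement_eq_one_iff_mul_comm.mp (hcon k hk)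

/-- The index of a centralizer. -/
theorem Good.card_centralizer [Fact p.Prime] (h : Good p r T N W z w) {x : G} (hx : x ∈ T)
    (hxL : x ∉ N ⊔ Subgroup.zpowers z) :
    Nat.card T = Nat.card (T ⊓ Subgroup.centralizer ({x} : Set G) : Subgroup G) * p := by
  obtain ⟨y, hy, hne⟩ := h.exists_ne_one hx hxL
  let f : ↥T →* ↥(Subgroup.zpowers z) := MonoidHom.mk'
    (fun g => ⟨⁅x, (g : G)⁆, h.hcomm x hx g g.2⟩) (by
      intro a b
      apply Subtype.ext
      exact h.comm_mul_right hx a.2 b.2)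
  have hker : f.ker.map T.subtype = T ⊓ Subgroup.centralizer ({x} : Set G) := by
    ext g
    constructor
    · rintro ⟨a, ha, rfl⟩
      refine ⟨a.2, ?_⟩
      show (a : G) ∈ Subgroup.centralizer ({x} : Set G)
      rw [Subgroup.mem_centralizer_singleton_iff]
      have h1 : ⁅x, (a : G)⁆ = 1 := congrArg Subtype.val ha
      exact (commutatorElement_eq_one_iff_mul_comm.mp h1).symm
    · rintro ⟨h1, h2⟩
      refine ⟨⟨g, h1⟩, ?_, rfl⟩
      show f ⟨g, h1⟩ = 1
      apply Subtype.ext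
      have h2' : g ∈ Subgroup.centralizer ({x} : Set G) := h2
      rw [Subgroup.mem_centralizer_singleton_iff] at h2'
      exact commutatorElement_eq_one_iff_mul_comm.mpr h2'.symm
  have hrange : f.range = ⊤ := by
    have hprime : (Nat.card (Subgroup.zpowers z)).Prime := by
      rw [h.card_zpowers]; exact Fact.out
    haveI : Fact (Nat.card (Subgroup.zpowers z)).Prime := ⟨hprime⟩
    rcases f.range.eq_bot_or_eq_top_of_prime_card with hb | ht
    · exfalso
      apply hne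
      have h1 : f ⟨y, hy⟩ ∈ f.range := ⟨_, rfl⟩
      rw [hb, Subgroup.mem_bot] at h1
      exact congrArg Subtype.val h1
    · exact ht
  have h1 : f.ker.index = p := by
    rw [Subgroup.index_ker, hrange, Subgroup.card_top, h.card_zpowers]
  rw [← hker, Subgroup.card_map_of_injective T.subtype_injective, ← h1, Subgroup.card_mul_index]

/-- General fact on relative indices. -/
theorem relIndex_sup_zpowers {H : Type*} [Group H] [Finite H] {p : ℕ} [Fact p.Prime] (K : Subgroup H) [K.Normal]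
    (a : H) (ha : a ∉ K) (hp : a ^ p ∈ K) : K.relIndex (K ⊔ Subgroup.zpowers a) = p := by
  rw [Subgroup.relIndex_sup_left]
  let f : ↥(Subgroup.zpowers a) →* H ⧸ K := (QuotientGroup.mk' K).comp (Subgroup.zpowers a).subtype
  have hker : f.ker = K.subgroupOf (Subgroup.zpowers a) := by
    ext g
    rw [MonoidHom.mem_ker, Subgroup.mem_subgroupOf]
    exact QuotientGroup.eq_one_iff _
  have hrange : f.range = Subgroup.zpowers (QuotientGroup.mk' K a) := by
    show ((QuotientGroup.mk' K).comp (Subgroup.zpowers a).subtype).range = _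
    rw [MonoidHom.range_comp, Subgroup.range_subtype, MonoidHom.map_zpowers]
  have hord : orderOf (QuotientGroup.mk' K a) = p := by
    apply orderOf_eq_prime
    · rw [← map_pow]
      exact (QuotientGroup.eq_one_iff _).mpr hp
    · intro h1
      exact ha ((QuotientGroup.eq_one_iff _).mp h1)
  unfold Subgroup.relIndex
  rw [← hker, Subgroup.index_ker, hrange, Nat.card_zpowers, hord]

/-- `|L ⟨a⟩| = p |L|`. -/
theorem card_sup_zpowers {p : ℕ} [Fact p.Prime] {T L : Subgroup G} (hLT : L ≤ T)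
    (hLc : ∀ l ∈ L, ∀ g ∈ T, l * g = g * l) {a : G} (ha : a ∈ T) (haL : a ∉ L) (hp : a ^ p ∈ L) :
    Nat.card (L ⊔ Subgroup.zpowers a : Subgroup G) = p * Nat.card L := by
  let L₁ : Subgroup T := L.subgroupOf T
  let a₁ : T := ⟨a, ha⟩
  haveI hn : L₁.Normal := by
    constructor
    intro l hl g
    rw [Subgroup.mem_subgroupOf] at hl ⊢
    have h1 : (g : G) * l * (g : G)⁻¹ = l := by
      rw [← hLc l hl g g.2]
      group
    simpa [h1] using hl
  have h1 := relIndex_sup_zpowers (p := p) L₁ a₁ (by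
    rw [Subgroup.mem_subgroupOf]; exact haL) (by
    rw [Subgroup.mem_subgroupOf]; exact hp)
  have h2 : (L₁ ⊔ Subgroup.zpowers a₁).map T.subtype = L ⊔ Subgroup.zpowers a := by
    rw [Subgroup.map_sup, Subgroup.map_subgroupOf_eq_of_le hLT, MonoidHom.map_zpowers]
    rfl
  have h3 : Nat.card (L₁ ⊔ Subgroup.zpowers a₁ : Subgroup T) = p * Nat.card L₁ := by
    have := Subgroup.index_mul_card (L₁.subgroupOf (L₁ ⊔ Subgroup.zpowers a₁))
    rw [show Nat.card (L₁.subgroupOf (L₁ ⊔ Subgroup.zpowers a₁)) = Nat.card L₁ from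
      Nat.card_congr (Subgroup.subgroupOfEquivOfLe le_sup_left).toEquiv] at this
    rw [← this]
    congr 1
  have h4 : Nat.card L₁ = Nat.card L := Nat.card_congr (Subgroup.subgroupOfEquivOfLe hLT).toEquiv
  rw [← h2, Subgroup.card_map_of_injective T.subtype_injective, h3, h4]

theorem exists_mem_sup_zpowers {N : Subgroup G} {x g : G} (hc : ∀ n ∈ N, n * x = x * n)
    (hg : g ∈ N ⊔ Subgroup.zpowers x) : ∃ n ∈ N, ∃ i : ℕ, g = n * x ^ i := by
  have hnz : N ≤ Subgroup.normalizer ((Subgroup.zpowers x : Subgroup G) : Set G) := by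
    intro n hn
    apply Cfsg.Agent.Lib.Subnormal.mem_normalizer_of_conj_mem
    rintro _ ⟨k, rfl⟩
    have hc' : Commute n x := hc n hn
    refine ⟨k, ?_⟩
    show x ^ k = n * x ^ k * n⁻¹
    rw [(hc'.zpow_right k).eq]
    group
  have hg' : g ∈ ((N ⊔ Subgroup.zpowers x : Subgroup G) : Set G) := hg
  rw [Subgroup.coe_mul_of_left_le_normalizer_right N _ hnz] at hg'
  obtain ⟨n, hn, d, hd, rfl⟩ := hg'
  have hd' : d ∈ Submonoid.powers x := mem_powers_iff_mem_zpowers.mpr hd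
  obtain ⟨i, rfl⟩ := hd'
  exact ⟨n, hn, i, rfl⟩

theorem Good.hLc (h : Good p r T N W z w) : ∀ l ∈ N ⊔ Subgroup.zpowers z, ∀ g ∈ T, l * g = g * l := by
  intro l hl g hg
  obtain ⟨n, hn, i, rfl⟩ := h.exists_mem_L hl
  have h1 : Commute n g := h.hNc n hn g hg
  have h2 : Commute (z ^ i) g := (show Commute z g from h.hzc g hg).pow_left i
  exact (h1.mul_left h2).eq

/-- The action on `W`. -/
noncomputable def act (W : Subgroup G) (g : G) (hg : g ∈ Subgroup.normalizer (W : Set G)) : MulAut W :=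
  W.normalizerMonoidHom ⟨g, hg⟩

omit [Finite G] in
theorem act_apply (W : Subgroup G) (g : G) (hg : g ∈ Subgroup.normalizer (W : Set G)) (v : W) :
    ((act W g hg v : W) : G) = g * v * g⁻¹ := rfl

omit [Finite G] in
theorem act_mul (W : Subgroup G) {g k : G} (hg : g ∈ Subgroup.normalizer (W : Set G))
    (hk : k ∈ Subgroup.normalizer (W : Set G)) :
    act W g hg * act W k hk = act W (g * k) (mul_mem hg hk) := by
  unfold act
  rw [← map_mul]
  rfl

omit [Finite G] in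
theorem act_pow (W : Subgroup G) {g : G} (hg : g ∈ Subgroup.normalizer (W : Set G)) (n : ℕ) :
    act W g hg ^ n = act W (g ^ n) (pow_mem hg n) := by
  unfold act
  rw [← map_pow]
  rfl

omit [Finite G] in
theorem act_eq_one (W : Subgroup G) {g : G} (hg : g ∈ Subgroup.normalizer (W : Set G))
    (h : ∀ v ∈ W, g * v = v * g) : act W g hg = 1 := by
  ext v
  rw [act_apply, h v v.2]
  simp

omit [Finite G] in
theorem act_inv (W : Subgroup G) {g : G} (hg : g ∈ Subgroup.normalizer (W : Set G)) :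
    (act W g hg)⁻¹ = act W g⁻¹ (inv_mem hg) := by
  unfold act
  rw [← map_inv]
  rfl

/-- The key step in the induction. -/
theorem Good.card_eq [Fact p.Prime] (h : Good p r T N W z w) (hr1 : 1 < r) (hpr : p.Coprime r) {x y : G}
    (hx : x ∈ T) (hy : y ∈ T) (hxp : x ^ p ∈ N) (hne : ⁅x, y⁆ ≠ 1) :
    Nat.card W = Nat.card (W ⊓ Subgroup.centralizer ({x} : Set G) : Subgroup G) ^ p := by
  have hxN := h.hWn hx
  have hyN := h.hWn hy
  have hzN := h.hWn h.hzT
  have hcz : ⁅x, y⁆⁻¹ ∈ Subgroup.zpowers z := inv_mem (h.hcomm x hx y hy)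
  have hz' : ⁅x, y⁆⁻¹ ∈ Submonoid.powers z := mem_powers_iff_mem_zpowers.mpr hcz
  obtain ⟨m, hm⟩ := hz'
  have hm' : z ^ m = ⁅x, y⁆⁻¹ := hm
  have hppos : (Fact.out : p.Prime).pos = (Fact.out : p.Prime).pos := rfl
  have hval : z ^ ((m : ZMod p)).val = z ^ m := by
    rw [ZMod.val_natCast]
    conv_rhs => rw [← Nat.div_add_mod m p, pow_add, pow_mul, h.hzp, one_pow, one_mul]
  have hc0 : (m : ZMod p) ≠ 0 := by
    intro h0
    rw [ZMod.natCast_eq_zero_iff] at h0
    obtain ⟨q, rfl⟩ := h0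
    rw [pow_mul, h.hzp, one_pow] at hm'
    apply hne
    have := congrArg (·⁻¹) hm'
    simpa using this.symm
  have hconj : y * x * y⁻¹ = x * z ^ ((m : ZMod p)).val := by
    rw [hval, hm']
    have h1 : ⁅x, y⁆ * x = x * ⁅x, y⁆ := h.comm_central hx hy hx
    have h2 : ⁅x, y⁆⁻¹ * x = x * ⁅x, y⁆⁻¹ := (show Commute ⁅x, y⁆ x from h1).inv_left.eq
    rw [← h2, commutatorElement_def]
    group
  have hmain := card_eq_pow_group (W := ↥W) (p := p) (r := r)
    (X := act W x hxN) (Y := act W y hyN) (Z := act W z hzN)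
    (fun a b => Subtype.ext (h.hWc a a.2 b b.2))
    (by
      rw [act_pow]
      exact act_eq_one W _ (h.hWN _ hxp))
    (by
      rw [act_pow]
      apply act_eq_one
      intro v _
      rw [h.hzp]
      group)
    (by
      show act W x hxN * act W z hzN = act W z hzN * act W x hxN
      rw [act_mul, act_mul]
      congr 1
      exact (h.hzc x hx).symm)
    (by
      show act W y hyN * act W z hzN = act W z hzN * act W y hyN
      rw [act_mul, act_mul]
      congr 1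
      exact (h.hzc y hy).symm)
    (m : ZMod p) hc0
    (by
      rw [act_inv, act_mul, act_mul, act_pow, act_mul]
      congr 1)
    (by
      intro v hv
      have h1 : z * (v : G) * z⁻¹ = v := by
        rw [← act_apply W z hzN, hv]
      have h2 : z * (v : G) = v * z := by
        calc z * (v : G) = (z * (v : G) * z⁻¹) * z := by group
          _ = v * z := by rw [h1]
      exact Subtype.ext (h.hWz v v.2 h2))
    hr1
    (fun v => Subtype.ext (h.hWr v v.2))
    hpr
  rw [hmain]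
  congr 1
  have hmem1 : ∀ v : {v : W // act W x hxN v = v}, ((v : W) : G) ∈ Subgroup.centralizer ({x} : Set G) := by
    intro v
    have h1 := congrArg Subtype.val v.2
    rw [act_apply] at h1
    rw [Subgroup.mem_centralizer_singleton_iff]
    calc ((v : W) : G) * x = (x * ((v : W) : G) * x⁻¹) * x := by rw [h1]
      _ = x * ((v : W) : G) := by group
  have hmem2 : ∀ v : ↥(W ⊓ Subgroup.centralizer ({x} : Set G)),
      act W x hxN ⟨v, v.2.1⟩ = ⟨v, v.2.1⟩ := by
    intro v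
    apply Subtype.ext
    rw [act_apply]
    have h1 : (v : G) ∈ Subgroup.centralizer ({x} : Set G) := v.2.2
    rw [Subgroup.mem_centralizer_singleton_iff] at h1
    show x * (v : G) * x⁻¹ = v
    rw [← h1]
    group
  exact Nat.card_congr ⟨fun v => ⟨v.1, v.1.2, hmem1 v⟩, fun v => ⟨⟨v, v.2.1⟩, hmem2 v⟩,
    fun v => rfl, fun v => rfl⟩

/-- The inductive step. -/
theorem Good.step [Fact p.Prime] (h : Good p r T N W z (w + 1)) (hr1 : 1 < r) (hpr : p.Coprime r) {x : G}
    (hx : x ∈ T) (hxL : x ∉ N ⊔ Subgroup.zpowers z) (hxp : x ^ p ∈ N) :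
    Good p r (T ⊓ Subgroup.centralizer ({x} : Set G)) (N ⊔ Subgroup.zpowers x)
      (W ⊓ Subgroup.centralizer ({x} : Set G)) z w ∧
    Nat.card W = Nat.card (W ⊓ Subgroup.centralizer ({x} : Set G) : Subgroup G) ^ p := by
  obtain ⟨y, hy, hne⟩ := h.exists_ne_one hx hxL
  set T' : Subgroup G := T ⊓ Subgroup.centralizer ({x} : Set G) with hT'
  set W' : Subgroup G := W ⊓ Subgroup.centralizer ({x} : Set G) with hW'
  have hmemC : ∀ g : G, g ∈ Subgroup.centralizer ({x} : Set G) ↔ g * x = x * g := fun g =>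
    Subgroup.mem_centralizer_singleton_iff
  have hxT' : x ∈ T' := ⟨hx, (hmemC x).mpr rfl⟩
  have hT'T : T' ≤ T := inf_le_left
  have hT'c : ∀ g ∈ T', g * x = x * g := fun g hg => (hmemC g).mp hg.2
  have hcardW : Nat.card W = Nat.card W' ^ p := h.card_eq hr1 hpr hx hy hxp hne
  have hcm : ⁅x, y⁆ ∈ Subgroup.zpowers z := h.hcomm x hx y hy
  -- `⁅x, y⁆` generates `⟨z⟩`
  have hgen : ∀ t ∈ Subgroup.zpowers z, ∃ j : ℕ, t = ⁅x, y⁆ ^ j := by
    have h1 : Subgroup.zpowers ⁅x, y⁆ = Subgroup.zpowers z := by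
      apply Subgroup.eq_of_le_of_card_ge
      · rw [Subgroup.zpowers_le]; exact hcm
      · rw [h.card_zpowers, Nat.card_zpowers]
        obtain ⟨k, hk⟩ := Subgroup.mem_zpowers_iff.mp hcm
        have h2 : ⁅x, y⁆ ^ p = 1 := by
          rw [← hk, ← zpow_natCast, ← zpow_mul, mul_comm, zpow_mul, zpow_natCast, h.hzp, one_zpow]
        rw [orderOf_eq_prime h2 hne]
    intro t ht
    rw [← h1] at ht
    have ht' : t ∈ Submonoid.powers ⁅x, y⁆ := mem_powers_iff_mem_zpowers.mpr ht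
    obtain ⟨j, rfl⟩ := ht'
    exact ⟨j, rfl⟩
  -- `T = T' ⟨y⟩`
  have hdec : ∀ g ∈ T, ∃ g' ∈ T', ∃ j : ℕ, g = g' * y ^ j := by
    intro g hg
    obtain ⟨j, hj⟩ := hgen _ (h.hcomm x hx g hg)
    have hg' : g * (y ^ j)⁻¹ ∈ T := T.mul_mem hg (T.inv_mem (pow_mem hy j))
    refine ⟨g * (y ^ j)⁻¹, ⟨hg', ?_⟩, j, by group⟩
    apply (hmemC _).mpr
    have h1 : ⁅x, g * (y ^ j)⁻¹ * y ^ j⁆ = ⁅x, g * (y ^ j)⁻¹⁆ * ⁅x, y ^ j⁆ :=
      h.comm_mul_right hx hg' (pow_mem hy j)
    rw [inv_mul_cancel_right, hj, h.comm_pow_right hx hy j] at h1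
    have h2 : ⁅x, g * (y ^ j)⁻¹⁆ = 1 := by
      have := mul_eq_right.mp h1.symm
      exact this
    exact (commutatorElement_eq_one_iff_mul_comm.mp h2).symm
  have hzx : z * x = x * z := h.hzc x hx
  have hLc := h.hLc
  have hLT := h.hLT
  have hNx : ∀ n ∈ N, n * x = x * n := fun n hn => h.hNc n hn x hx
  have hcardx : Nat.card (N ⊔ Subgroup.zpowers z ⊔ Subgroup.zpowers x : Subgroup G) =
      p * Nat.card (N ⊔ Subgroup.zpowers z : Subgroup G) :=
    card_sup_zpowers hLT hLc hx hxL (Subgroup.mem_sup_left hxp)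
  have hcardT := h.card_centralizer hx hxL
  have hsupcomm : N ⊔ Subgroup.zpowers x ⊔ Subgroup.zpowers z = N ⊔ Subgroup.zpowers z ⊔ Subgroup.zpowers x :=
    sup_right_comm _ _ _
  have hN'cent : N ⊔ Subgroup.zpowers x ≤ Subgroup.centralizer (T' : Set G) := by
    apply sup_le
    · intro n hn
      rw [Subgroup.mem_centralizer_iff]
      intro g hg
      exact (h.hNc n hn g (hT'T hg)).symm
    · rw [Subgroup.zpowers_le, Subgroup.mem_centralizer_iff]
      intro g hg
      exact hT'c g hg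
  refine ⟨?_, hcardW⟩
  refine
    { hTp := h.hTp.to_le hT'T
      hzT := ⟨h.hzT, (hmemC z).mpr hzx⟩
      hzp := h.hzp
      hzN := ?_
      hNT := ?_
      hcomm := fun g hg k hk => h.hcomm g (hT'T hg) k (hT'T hk)
      hNc := ?_
      hzc := fun g hg => h.hzc g (hT'T hg)
      hZ := ?_
      hpow := ?_
      hcard := ?_
      hWn := ?_
      hWN := ?_
      hWz := fun v hv => h.hWz v hv.1
      hWne := ?_
      hWc := fun a ha b hb => h.hWc a ha.1 b hb.1
      hWr := fun a ha => h.hWr a ha.1 }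
  · -- `z ∉ N ⟨x⟩`
    intro hz
    obtain ⟨n, hn, i, hi⟩ := exists_mem_sup_zpowers hNx hz
    by_cases hpi : p ∣ i
    · obtain ⟨q, rfl⟩ := hpi
      apply h.hzN
      rw [hi, pow_mul]
      exact N.mul_mem hn (pow_mem hxp q)
    · apply hxL
      have h1 : x ^ i ∈ N ⊔ Subgroup.zpowers z := by
        have e : x ^ i = n⁻¹ * z := by rw [hi]; group
        rw [e]
        exact Subgroup.mul_mem _ (Subgroup.mem_sup_left (N.inv_mem hn))
          (Subgroup.mem_sup_right (Subgroup.mem_zpowers z))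
      apply Cfsg.Agent.Lib.CharTwoLocal.mem_of_pow_mem_of_coprime h1
      obtain ⟨k, hk⟩ := (IsPGroup.iff_orderOf.mp h.hTp) ⟨x, hx⟩
      rw [Subgroup.orderOf_mk] at hk
      rw [hk]
      exact Nat.Coprime.pow_left k ((Nat.Prime.coprime_iff_not_dvd Fact.out).mpr hpi)
  · -- `N ⟨x⟩ ≤ T'`
    apply sup_le
    · intro n hn
      exact ⟨h.hNT hn, (hmemC n).mpr (hNx n hn)⟩
    · rw [Subgroup.zpowers_le]
      exact hxT'
  · intro n hn g hg
    exact ((Subgroup.mem_centralizer_iff.mp (hN'cent hn)) g hg).symm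
  · -- the centre
    intro g hg hcomm
    obtain ⟨k, hk⟩ := hgen _ (h.hcomm g (hT'T hg) y hy)
    have hgx : g * (x ^ k)⁻¹ ∈ T := T.mul_mem (hT'T hg) (T.inv_mem (pow_mem hx k))
    have hy1 : ⁅g * (x ^ k)⁻¹, y⁆ = 1 := by
      have h1 : ⁅g * (x ^ k)⁻¹ * x ^ k, y⁆ = ⁅g * (x ^ k)⁻¹, y⁆ * ⁅x ^ k, y⁆ :=
        h.comm_mul_left hgx (pow_mem hx k) hy
      rw [inv_mul_cancel_right, hk, h.comm_pow_left hx hy k] at h1
      exact mul_eq_right.mp h1.symm
    have hcommall : ∀ t ∈ T, g * (x ^ k)⁻¹ * t = t * (g * (x ^ k)⁻¹) := by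
      intro t ht
      obtain ⟨t', ht', j, rfl⟩ := hdec t ht
      have hc1 : Commute (g * (x ^ k)⁻¹) t' := by
        have h1 : Commute g t' := hcomm t' ht'
        have h2 : Commute x t' := (hT'c t' ht').symm
        exact h1.mul_left (h2.pow_left k).inv_left
      have hc2 : Commute (g * (x ^ k)⁻¹) (y ^ j) :=
        (show Commute (g * (x ^ k)⁻¹) y from commutatorElement_eq_one_iff_mul_comm.mp hy1).pow_right j
      exact (hc1.mul_right hc2).eq
    have h2 := h.hZ _ hgx hcommall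
    have e : g = g * (x ^ k)⁻¹ * x ^ k := by group
    rw [e, hsupcomm]
    exact Subgroup.mul_mem _ (Subgroup.mem_sup_left h2)
      (Subgroup.mem_sup_right (pow_mem (Subgroup.mem_zpowers x) k))
  · intro g hg
    rw [hsupcomm]
    exact Subgroup.mem_sup_left (h.hpow g (hT'T hg))
  · -- the order
    have hp0 : 0 < p := (Fact.out : p.Prime).pos
    have h1 := h.hcard
    rw [hcardT] at h1
    rw [hsupcomm, hcardx]
    apply Nat.eq_of_mul_eq_mul_right hp0
    rw [h1]
    ring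
  · -- normalizer
    intro t ht
    apply Cfsg.Agent.Lib.Subnormal.mem_normalizer_of_conj_mem
    intro d hd
    refine ⟨(Subgroup.mem_normalizer_iff.mp (h.hWn (hT'T ht)) d).mp hd.1, ?_⟩
    apply (hmemC _).mpr
    have h1 : Commute t x := hT'c t ht
    have h2 : Commute d x := (hmemC d).mp hd.2
    exact ((h1.mul_left h2).mul_left h1.inv_left).eq
  · -- action of `N ⟨x⟩`
    have hle : N ⊔ Subgroup.zpowers x ≤ Subgroup.centralizer (W' : Set G) := by
      apply sup_le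
      · intro n hn
        rw [Subgroup.mem_centralizer_iff]
        intro v hv
        exact (h.hWN n hn v hv.1).symm
      · rw [Subgroup.zpowers_le, Subgroup.mem_centralizer_iff]
        intro v hv
        exact (hmemC v).mp hv.2
    intro n hn v hv
    exact ((Subgroup.mem_centralizer_iff.mp (hle hn)) v hv).symm
  · -- nontrivial
    intro hbot
    apply h.hWne
    rw [hbot] at hcardW
    simp only [Nat.card_eq_fintype_card, Fintype.card_ofSubsingleton, one_pow] at hcardW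
    exact (Subgroup.eq_bot_of_card_eq _ hcardW)

/-- Base of the induction. -/
theorem Good.base [Fact p.Prime] [hr : Fact r.Prime] (h : Good p r T N W z w) {n : ℕ}
    (hmin : ∀ k : ℕ, 1 ≤ k → p ∣ r ^ k - 1 → n ≤ k) : r ^ n ≤ Nat.card W := by
  have hrW : IsPGroup r W := by
    intro v
    exact ⟨1, Subtype.ext (by simpa using h.hWr v v.2)⟩
  obtain ⟨d, hd⟩ := IsPGroup.iff_card.mp hrW
  have hzN := h.hWn h.hzT
  set Z := act W z hzN with hZdef
  have hZp : Z ^ p = 1 := by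
    rw [hZdef, act_pow]
    apply act_eq_one
    intro v _
    rw [h.hzp]
    group
  have hC : IsPGroup p (Subgroup.zpowers Z) := by
    rintro ⟨c, m, rfl⟩
    refine ⟨1, Subtype.ext ?_⟩
    show (Z ^ m) ^ p ^ 1 = 1
    rw [pow_one, ← zpow_natCast, ← zpow_mul, mul_comm, zpow_mul, zpow_natCast, hZp, one_zpow]
  have hmod := hC.card_modEq_card_fixedPoints (↥W)
  have hfix : MulAction.fixedPoints (Subgroup.zpowers Z) ↥W = {1} := by
    ext v
    rw [MulAction.mem_fixedPoints, Set.mem_singleton_iff]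
    constructor
    · intro hv
      have h1 : Z v = v := hv ⟨Z, Subgroup.mem_zpowers Z⟩
      have h2 : z * (v : G) * z⁻¹ = v := congrArg Subtype.val h1
      have h3 : z * (v : G) = v * z := by
        calc z * (v : G) = (z * (v : G) * z⁻¹) * z := by group
          _ = v * z := by rw [h2]
      exact Subtype.ext (h.hWz v v.2 h3)
    · rintro rfl g
      exact smul_one g
  rw [hfix] at hmod
  simp only [Nat.card_eq_fintype_card, Fintype.card_ofSubsingleton] at hmod
  have hmod' : Nat.card W ≡ 1 [MOD p] := by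
    simpa using hmod
  have hd0 : d ≠ 0 := by
    rintro rfl
    apply h.hWne
    apply Subgroup.eq_bot_of_card_eq
    simpa using hd
  rw [hd]
  apply Nat.pow_le_pow_right hr.out.pos
  apply hmin d (Nat.one_le_iff_ne_zero.mpr hd0)
  rw [hd] at hmod'
  exact (Nat.modEq_iff_dvd' (Nat.one_le_pow _ _ hr.out.pos)).mp hmod'.symm

/-- The power map for odd `p`. -/
theorem Good.mul_pow_odd [Fact p.Prime] (h : Good p r T N W z w) (hp2 : p ≠ 2) {g k : G} (hg : g ∈ T)
    (hk : k ∈ T) : (g * k) ^ p = g ^ p * k ^ p := by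
  have hw : k * g = ⁅k, g⁆ * g * k := by
    rw [commutatorElement_def]
    group
  have hwg : Commute ⁅k, g⁆ g := h.comm_central hk hg hg
  have hwk : Commute ⁅k, g⁆ k := h.comm_central hk hg hk
  have h1 := Cfsg.Agent.Lib.OddLocalA.mul_pow_of_central_comm g k _ hw hwg hwk p
  have hwp : ⁅k, g⁆ ^ p = 1 := by
    obtain ⟨m, hm⟩ := Subgroup.mem_zpowers_iff.mp (h.hcomm k hk g hg)
    rw [← hm, ← zpow_natCast, ← zpow_mul, mul_comm, zpow_mul, zpow_natCast, h.hzp, one_zpow]
  have hdvd : p ∣ p.choose 2 := by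
    have hodd : Odd p := (Fact.out : p.Prime).odd_of_ne_two hp2
    obtain ⟨t, ht⟩ := hodd
    rw [Nat.choose_two_right]
    refine ⟨t, ?_⟩
    rw [ht]
    have : 2 * t + 1 - 1 = 2 * t := by omega
    rw [this]
    rw [show (2 * t + 1) * (2 * t) = 2 * ((2 * t + 1) * t) by ring, Nat.mul_div_cancel_left _ (by norm_num)]
  obtain ⟨q, hq⟩ := hdvd
  rw [h1, hq, pow_mul, hwp, one_pow, mul_one]

theorem Good.exists_not_mem (h : Good p r T N W z w) [Fact p.Prime] {K : Subgroup G} (hK : Nat.card K < Nat.card T) :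
    ∃ b ∈ T, b ∉ K := by
  by_contra hcon
  push Not at hcon
  exact absurd (Subgroup.card_le_of_le (fun b hb => hcon b hb)) (not_le_of_gt hK)

/-- Finding `x`, odd `p`. -/
theorem Good.exists_x_odd [Fact p.Prime] (h : Good p r T N W z (w + 1)) (hp2 : p ≠ 2) :
    ∃ x ∈ T, x ∉ N ⊔ Subgroup.zpowers z ∧ x ^ p ∈ N := by
  have hp1 : 1 < p := (Fact.out : p.Prime).one_lt
  have hLpos : 0 < Nat.card (N ⊔ Subgroup.zpowers z : Subgroup G) := Nat.card_pos
  have hpw : p ^ 2 ≤ p ^ (2 * (w + 1)) := Nat.pow_le_pow_right (by omega) (by omega)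
  have hcardT := h.hcard
  have hbig : p * Nat.card (N ⊔ Subgroup.zpowers z : Subgroup G) < Nat.card T := by
    rw [hcardT]
    have h1 : p * 1 < p ^ 2 := by nlinarith
    calc p * Nat.card (N ⊔ Subgroup.zpowers z : Subgroup G)
        < p ^ 2 * Nat.card (N ⊔ Subgroup.zpowers z : Subgroup G) := by nlinarith
      _ ≤ p ^ (2 * (w + 1)) * Nat.card (N ⊔ Subgroup.zpowers z : Subgroup G) :=
          Nat.mul_le_mul_right _ hpw
      _ = _ := by ring
  obtain ⟨a, ha, haL⟩ := h.exists_not_mem (K := N ⊔ Subgroup.zpowers z) (by nlinarith)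
  have hcarda := card_sup_zpowers h.hLT h.hLc ha haL (h.hpow a ha)
  obtain ⟨b, hb, hbL⟩ := h.exists_not_mem (K := N ⊔ Subgroup.zpowers z ⊔ Subgroup.zpowers a) (by
    rw [hcarda]; exact hbig)
  by_cases hapN : a ^ p ∈ N
  · exact ⟨a, ha, haL, hapN⟩
  obtain ⟨n₁, hn₁, i, hi⟩ := h.exists_mem_L (h.hpow a ha)
  obtain ⟨n₂, hn₂, j, hj⟩ := h.exists_mem_L (h.hpow b hb)
  have hpi : ¬ p ∣ i := by
    rintro ⟨q, rfl⟩
    apply hapN
    rw [hi, pow_mul, h.hzp, one_pow, mul_one]
    exact hn₁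
  have hi0 : (i : ZMod p) ≠ 0 := by
    rw [Ne, ZMod.natCast_eq_zero_iff]
    exact hpi
  set k : ℕ := (-(j : ZMod p) / (i : ZMod p)).val with hk
  have hkz : p ∣ i * k + j := by
    rw [← ZMod.natCast_eq_zero_iff]
    push_cast
    rw [hk, ZMod.natCast_zmod_val]
    field_simp
    ring
  obtain ⟨q, hq⟩ := hkz
  have hak : a ^ k ∈ T := pow_mem ha k
  refine ⟨a ^ k * b, T.mul_mem hak hb, ?_, ?_⟩
  · intro hmem
    apply hbL
    have e : b = (a ^ k)⁻¹ * (a ^ k * b) := by group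
    rw [e]
    exact Subgroup.mul_mem _ (Subgroup.mem_sup_right (inv_mem (pow_mem (Subgroup.mem_zpowers a) k)))
      (Subgroup.mem_sup_left hmem)
  · rw [h.mul_pow_odd hp2 hak hb, ← pow_mul, mul_comm k p, pow_mul, hi, hj]
    have hzn₁ : Commute z n₁ := h.hzc n₁ (h.hNT hn₁)
    have hzn₂ : Commute z n₂ := h.hzc n₂ (h.hNT hn₂)
    have e1 : (n₁ * z ^ i) ^ k = n₁ ^ k * z ^ (i * k) := by
      rw [((hzn₁.pow_left i).symm).mul_pow, pow_mul]
    rw [e1]
    have e2 : n₁ ^ k * z ^ (i * k) * (n₂ * z ^ j) = n₁ ^ k * n₂ * z ^ (i * k + j) := by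
      have h3 : z ^ (i * k) * n₂ = n₂ * z ^ (i * k) := (hzn₂.pow_left _).eq
      calc n₁ ^ k * z ^ (i * k) * (n₂ * z ^ j) = n₁ ^ k * (z ^ (i * k) * n₂) * z ^ j := by group
        _ = n₁ ^ k * (n₂ * z ^ (i * k)) * z ^ j := by rw [h3]
        _ = _ := by rw [pow_add]; group
    rw [e2, hq, pow_mul, h.hzp, one_pow, mul_one]
    exact N.mul_mem (pow_mem hn₁ k) hn₂

/-- Finding `x`, `p = 2`. -/
theorem Good.exists_x_two [Fact (Nat.Prime 2)] (h : Good 2 r T N W z (w + 2)) :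
    ∃ x ∈ T, x ∉ N ⊔ Subgroup.zpowers z ∧ x ^ 2 ∈ N := by
  have hLpos : 0 < Nat.card (N ⊔ Subgroup.zpowers z : Subgroup G) := Nat.card_pos
  have hcardT := h.hcard
  have hpw : 2 ^ 4 ≤ 2 ^ (2 * (w + 2)) := Nat.pow_le_pow_right (by omega) (by omega)
  obtain ⟨a, ha, haL⟩ := h.exists_not_mem (K := N ⊔ Subgroup.zpowers z) (by
    rw [hcardT]; nlinarith)
  by_cases hapN : a ^ 2 ∈ N
  · exact ⟨a, ha, haL, hapN⟩
  have hcarda := card_sup_zpowers h.hLT h.hLc ha haL (h.hpow a ha)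
  have hcardC := h.card_centralizer ha haL
  have hbig : Nat.card (N ⊔ Subgroup.zpowers z ⊔ Subgroup.zpowers a : Subgroup G) <
      Nat.card (T ⊓ Subgroup.centralizer ({a} : Set G) : Subgroup G) := by
    rw [hcarda]
    rw [hcardT] at hcardC
    nlinarith
  obtain ⟨b, hbC, hbL⟩ : ∃ b ∈ T ⊓ Subgroup.centralizer ({a} : Set G),
      b ∉ N ⊔ Subgroup.zpowers z ⊔ Subgroup.zpowers a := by
    by_contra hcon
    push Not at hcon
    exact absurd (Subgroup.card_le_of_le (fun b hb => hcon b hb)) (not_le_of_gt hbig)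
  have hb : b ∈ T := hbC.1
  have hba : Commute b a := Subgroup.mem_centralizer_singleton_iff.mp hbC.2
  have hbL' : b ∉ N ⊔ Subgroup.zpowers z := fun hm => hbL (Subgroup.mem_sup_left hm)
  by_cases hbpN : b ^ 2 ∈ N
  · exact ⟨b, hb, hbL', hbpN⟩
  obtain ⟨n₁, hn₁, i, hi⟩ := h.exists_mem_L (h.hpow a ha)
  obtain ⟨n₂, hn₂, j, hj⟩ := h.exists_mem_L (h.hpow b hb)
  have hodd : ∀ i : ℕ, ∀ n ∈ N, ∀ c : G, c ^ 2 = n * z ^ i → c ^ 2 ∉ N → c ^ 2 = n * z := by
    intro i n hn c hc hcN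
    rcases Nat.even_or_odd' i with ⟨t, rfl | rfl⟩
    · exfalso
      apply hcN
      rw [hc, pow_mul, h.hzp, one_pow, mul_one]
      exact hn
    · rw [hc, pow_succ, pow_mul, h.hzp, one_pow, one_mul]
  have h1 := hodd i n₁ hn₁ a hi hapN
  have h2 := hodd j n₂ hn₂ b hj hbpN
  refine ⟨a * b, T.mul_mem ha hb, ?_, ?_⟩
  · intro hmem
    apply hbL
    have e : b = a⁻¹ * (a * b) := by group
    rw [e]
    exact Subgroup.mul_mem _ (Subgroup.mem_sup_right (inv_mem (Subgroup.mem_zpowers a)))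
      (Subgroup.mem_sup_left hmem)
  · rw [hba.symm.mul_pow, h1, h2]
    have hzn₂ : z * n₂ = n₂ * z := h.hzc n₂ (h.hNT hn₂)
    have e : n₁ * z * (n₂ * z) = n₁ * n₂ * z ^ 2 := by
      calc n₁ * z * (n₂ * z) = n₁ * (z * n₂) * z := by group
        _ = n₁ * (n₂ * z) * z := by rw [hzn₂]
        _ = _ := by rw [pow_two]; simp only [mul_assoc]
    rw [e, h.hzp, mul_one]
    exact N.mul_mem hn₁ hn₂

/-- A nontrivial commutator generates `⟨z⟩`. -/
theorem Good.z_mem [Fact p.Prime] (h : Good p r T N W z w) {x y : G} (hx : x ∈ T) (hy : y ∈ T)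
    (hne : ⁅x, y⁆ ≠ 1) : z ∈ Subgroup.zpowers ⁅x, y⁆ := by
  have hcm : ⁅x, y⁆ ∈ Subgroup.zpowers z := h.hcomm x hx y hy
  have h1 : Subgroup.zpowers ⁅x, y⁆ = Subgroup.zpowers z := by
    apply Subgroup.eq_of_le_of_card_ge
    · rw [Subgroup.zpowers_le]; exact hcm
    · rw [h.card_zpowers, Nat.card_zpowers]
      obtain ⟨k, hk⟩ := Subgroup.mem_zpowers_iff.mp hcm
      have h2 : ⁅x, y⁆ ^ p = 1 := by
        rw [← hk, ← zpow_natCast, ← zpow_mul, mul_comm, zpow_mul, zpow_natCast, h.hzp, one_zpow]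
      rw [orderOf_eq_prime h2 hne]
  rw [h1]
  exact Subgroup.mem_zpowers z

/-- The case of width one: `|W| ≥ r²`. -/
theorem Good.two_case [Fact p.Prime] [hr : Fact r.Prime] (h : Good p r T N W z (w + 1)) :
    r ^ 2 ≤ Nat.card W := by
  have hp1 : 1 < p := (Fact.out : p.Prime).one_lt
  have hLpos : 0 < Nat.card (N ⊔ Subgroup.zpowers z : Subgroup G) := Nat.card_pos
  have hcardT := h.hcard
  have hpw : p ^ 2 ≤ p ^ (2 * (w + 1)) := Nat.pow_le_pow_right (by omega) (by omega)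
  have hpw1 : 1 < p ^ (2 * (w + 1)) := Nat.one_lt_pow (by omega) hp1
  obtain ⟨a, ha, haL⟩ := h.exists_not_mem (K := N ⊔ Subgroup.zpowers z) (by
    rw [hcardT]; nlinarith)
  obtain ⟨b, hb, hne⟩ := h.exists_ne_one ha haL
  have hrW : IsPGroup r W := by
    intro v
    exact ⟨1, Subtype.ext (by simpa using h.hWr v v.2)⟩
  obtain ⟨d, hd⟩ := IsPGroup.iff_card.mp hrW
  have hd0 : d ≠ 0 := by
    rintro rfl
    apply h.hWne
    apply Subgroup.eq_bot_of_card_eq
    simpa using hd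
  by_contra hcon
  push Not at hcon
  have hd1 : d = 1 := by
    by_contra hd1
    have : 2 ≤ d := by omega
    have h1 : r ^ 2 ≤ r ^ d := Nat.pow_le_pow_right hr.out.pos this
    omega
  subst hd1
  rw [pow_one] at hd
  haveI : Fact (Nat.card W).Prime := by rw [hd]; exact hr
  haveI : IsCyclic W := isCyclic_of_prime_card rfl
  have haN := h.hWn ha
  have hbN := h.hWn hb
  have hcomm : act W a haN * act W b hbN = act W b hbN * act W a haN := by
    ext v
    obtain ⟨m, hm⟩ := MonoidHom.map_cyclic (act W a haN).toMonoidHom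
    obtain ⟨k, hk⟩ := MonoidHom.map_cyclic (act W b hbN).toMonoidHom
    have hm' : ∀ u : W, act W a haN u = u ^ m := hm
    have hk' : ∀ u : W, act W b hbN u = u ^ k := hk
    simp only [MulAut.mul_apply, hm', hk']
    rw [← zpow_mul, ← zpow_mul, mul_comm]
  have hcv : ∀ v ∈ W, ⁅a, b⁆ * v = v * ⁅a, b⁆ := by
    intro v hv
    set u : W := (act W b hbN * act W a haN)⁻¹ ⟨v, hv⟩ with hu
    have h0 : (act W b hbN * act W a haN) u = ⟨v, hv⟩ := by
      rw [hu, ← MulAut.mul_apply, mul_inv_cancel, MulAut.one_apply]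
    have h1 : (act W a haN * act W b hbN) u = ⟨v, hv⟩ := by rw [hcomm]; exact h0
    have h0' : b * (a * (u : G) * a⁻¹) * b⁻¹ = v := by
      have := congrArg Subtype.val h0
      simpa [MulAut.mul_apply, act_apply] using this
    have h1' : a * (b * (u : G) * b⁻¹) * a⁻¹ = v := by
      have := congrArg Subtype.val h1
      simpa [MulAut.mul_apply, act_apply] using this
    have ht : (u : G) = a⁻¹ * b⁻¹ * v * b * a := by
      rw [← h0']; group
    rw [ht] at h1'
    rw [commutatorElement_def]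
    calc a * b * a⁻¹ * b⁻¹ * v
        = (a * (b * (a⁻¹ * b⁻¹ * v * b * a) * b⁻¹) * a⁻¹) * (a * b * a⁻¹ * b⁻¹) := by group
      _ = v * (a * b * a⁻¹ * b⁻¹) := by rw [h1']
  have hzm := h.z_mem ha hb hne
  have hzc : ∀ v ∈ W, z * v = v * z := by
    intro v hv
    obtain ⟨m, hm⟩ := Subgroup.mem_zpowers_iff.mp hzm
    rw [← hm]
    exact (((show Commute ⁅a, b⁆ v from hcv v hv).zpow_left m)).eq
  apply h.hWne
  rw [eq_bot_iff]
  intro v hv
  exact h.hWz v hv (hzc v hv)

/-- The bound. -/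
theorem Good.bound [Fact p.Prime] [hr : Fact r.Prime] (hpr : p ≠ r) {n : ℕ}
    (hdiv : p ∣ r ^ n - 1) (hmin : ∀ k : ℕ, 1 ≤ k → p ∣ r ^ k - 1 → n ≤ k) (hn : 1 ≤ n) :
    ∀ (w : ℕ) (T N W : Subgroup G) (z : G), Good p r T N W z w → r ^ (n * p ^ w) ≤ Nat.card W := by
  intro w
  induction w with
  | zero =>
    intro T N W z h
    simpa using h.base hmin
  | succ w ih =>
    intro T N W z h
    have hco : p.Coprime r := (Nat.coprime_primes Fact.out hr.out).mpr hpr
    by_cases hp2 : p = 2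
    · subst hp2
      rcases Nat.eq_zero_or_pos w with rfl | hw
      · -- width one
        have hn1 : n = 1 := by
          apply le_antisymm _ hn
          apply hmin 1 le_rfl
          rw [pow_one]
          have hrodd : Odd r := hr.out.odd_of_ne_two hpr.symm
          obtain ⟨t, rfl⟩ := hrodd
          exact ⟨t, by omega⟩
        subst hn1
        simpa using h.two_case
      · obtain ⟨w', rfl⟩ : ∃ w', w = w' + 1 := ⟨w - 1, by omega⟩
        obtain ⟨x, hx, hxL, hxp⟩ := h.exists_x_two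
        obtain ⟨h1, h2⟩ := h.step hr.out.one_lt hco hx hxL hxp
        have h3 := ih _ _ _ _ h1
        rw [h2]
        calc r ^ (n * 2 ^ (w' + 1 + 1)) = (r ^ (n * 2 ^ (w' + 1))) ^ 2 := by
              rw [← pow_mul]; congr 1; ring
          _ ≤ _ := Nat.pow_le_pow_left h3 2
    · obtain ⟨x, hx, hxL, hxp⟩ := h.exists_x_odd hp2
      obtain ⟨h1, h2⟩ := h.step hr.out.one_lt hco hx hxL hxp
      have h3 := ih _ _ _ _ h1
      rw [h2]
      calc r ^ (n * p ^ (w + 1)) = (r ^ (n * p ^ w)) ^ p := by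
            rw [← pow_mul]; congr 1; ring
        _ ≤ _ := Nat.pow_le_pow_left h3 p

end basics

end Cfsg.Agent.Lib.ExtraBound
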