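import Mathlib
import Cfsg.Agent.Lib.GL2Torus

/-!
# A group of order `p³` of exponent `p`, its Frattini plane, and automorphisms stabilizing lines
-/

set_option autoImplicit false
set_option linter.all false

namespace Cfsg.Agent.Lib.ExtraP3

open Cfsg.Agent.Lib.GL2Torus

variable {Q : Type*} [Group Q] {p : ℕ} [hp : Fact p.Prime]
  {V : Type*} [AddCommGroup V] [Module (ZMod p) V]

variable (p) in
/-- The quotient plane. -/
structure Plane (π : Q → V) : Prop where
  add : ∀ u v, π (u * v) = π u + π v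
  ker : ∀ u, π u = 0 ↔ u ∈ Subgroup.center Q
  surj : Function.Surjective π
  exp : ∀ u : Q, u ^ p = 1
  cen : Nat.card (Subgroup.center Q) = p
  fin : Module.finrank (ZMod p) V = 2

/-- The commutator. -/
def com (u v : Q) : Q := u * v * u⁻¹ * v⁻¹

variable {π : Q → V} (h : Plane p π)
include h

theorem map_one : π 1 = 0 := by
  have := h.add 1 1
  simpa using this

theorem map_inv (u : Q) : π u⁻¹ = - π u := by
  have := h.add u⁻¹ u
  rw [inv_mul_cancel, map_one h] at this
  exact eq_neg_of_add_eq_zero_left this.symm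

theorem map_pow (u : Q) (n : ℕ) : π (u ^ n) = n • π u := by
  induction n with
  | zero => simp [map_one h]
  | succ n ih => rw [pow_succ, h.add, ih, succ_nsmul]

theorem map_pow_val (u : Q) (a : ZMod p) : π (u ^ a.val) = a • π u := by
  rw [map_pow h, ← Nat.cast_smul_eq_nsmul (ZMod p), ZMod.natCast_zmod_val]

theorem pow_val_add (u : Q) (a b : ZMod p) : u ^ (a + b).val = u ^ a.val * u ^ b.val := by
  rw [ZMod.val_add, ← pow_add]
  exact (pow_eq_pow_mod _ (h.exp u)).symm

theorem pow_val_mul (u : Q) (a b : ZMod p) : u ^ (a * b).val = u ^ (a.val * b.val) := by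
  rw [ZMod.val_mul]
  exact (pow_eq_pow_mod _ (h.exp u)).symm

theorem com_mem (u v : Q) : com u v ∈ Subgroup.center Q := by
  rw [← h.ker, com, h.add, h.add, h.add, map_inv h, map_inv h]
  abel

theorem central_comm {ζ : Q} (hζ : ζ ∈ Subgroup.center Q) (g : Q) : ζ * g = g * ζ := by
  exact (Subgroup.mem_center_iff.mp hζ g).symm

theorem com_mul_left (u u' v : Q) : com (u * u') v = com u v * com u' v := by
  have hc := central_comm h (com_mem h u' v)
  show u * u' * v * (u * u')⁻¹ * v⁻¹ = com u v * com u' v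
  have e : u * u' * v * (u * u')⁻¹ * v⁻¹ = u * (com u' v * v) * u⁻¹ * v⁻¹ := by
    simp only [com]
    group
  rw [e]
  generalize com u' v = ζ at hc
  calc u * (ζ * v) * u⁻¹ * v⁻¹ = (u * ζ) * (v * u⁻¹ * v⁻¹) := by group
    _ = (ζ * u) * (v * u⁻¹ * v⁻¹) := by rw [hc u]
    _ = ζ * (com u v) := by simp only [com]; group
    _ = com u v * ζ := hc _

theorem com_mul_right (u v v' : Q) : com u (v * v') = com u v * com u v' := by
  have hc := central_comm h (com_mem h u v')
  show u * (v * v') * u⁻¹ * (v * v')⁻¹ = com u v * com u v'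
  have e1 : u * (v * v') * u⁻¹ * (v * v')⁻¹ = (u * v * u⁻¹ * v⁻¹) * (v * (com u v') * v⁻¹) := by
    simp only [com]
    group
  rw [e1, ← hc v, mul_assoc (com u v') v, mul_inv_cancel, mul_one]
  rfl

theorem com_one_left (v : Q) : com (1 : Q) v = 1 := by simp [com]
theorem com_one_right (u : Q) : com u (1 : Q) = 1 := by simp [com]

theorem com_pow_left (u v : Q) (n : ℕ) : com (u ^ n) v = com u v ^ n := by
  induction n with
  | zero => simp [com]
  | succ n ih =>
    rw [pow_succ, com_mul_left h, ih, pow_succ]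

theorem com_pow_right (u v : Q) (n : ℕ) : com u (v ^ n) = com u v ^ n := by
  induction n with
  | zero => simp [com]
  | succ n ih =>
    rw [pow_succ, com_mul_right h, ih, pow_succ]

theorem com_pow_pow (u v : Q) (m n : ℕ) : com (u ^ m) (v ^ n) = com u v ^ (m * n) := by
  rw [com_pow_left h, com_pow_right h, ← pow_mul, mul_comm]

theorem com_central_left (u v : Q) {ζ : Q} (hζ : ζ ∈ Subgroup.center Q) : com (u * ζ) v = com u v := by
  have hc : com ζ v = 1 := by
    simp only [com]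
    rw [central_comm h hζ v]
    group
  rw [com_mul_left h, hc, mul_one]

theorem com_central_right (u v : Q) {ζ : Q} (hζ : ζ ∈ Subgroup.center Q) : com u (v * ζ) = com u v := by
  have hc : com u ζ = 1 := by
    simp only [com]
    rw [mul_assoc u ζ, central_comm h hζ u⁻¹]
    group
  rw [com_mul_right h, hc, mul_one]

theorem com_eq_one_iff (u v : Q) : com u v = 1 ↔ Commute u v := by
  simp only [com, Commute, SemiconjBy]
  constructor
  · intro hc
    have : u * v * u⁻¹ * v⁻¹ * (v * u) = v * u := by rw [hc, one_mul]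
    have e : u * v * u⁻¹ * v⁻¹ * (v * u) = u * v := by group
    rw [e] at this
    exact this
  · intro hc
    rw [hc]
    group

/-- `α` commuting with nothing outside `center`: order. -/
theorem orderOf_com {u v : Q} (huv : ¬ Commute u v) : orderOf (com u v) = p := by
  apply orderOf_eq_prime (h.exp _)
  intro hc
  exact huv ((com_eq_one_iff h u v).mp hc)

/-- Automorphisms preserve commutators. -/
theorem map_com (α : MulAut Q) (u v : Q) : α (com u v) = com (α u) (α v) := by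
  simp [com]

/-- Non-commuting elements have independent images. -/
theorem indep_of_not_comm {a b : Q} (hab : ¬ Commute a b) (α β : ZMod p) (hc : α • π a + β • π b = 0) :
    α = 0 ∧ β = 0 := by
  have h1 : π (a ^ α.val * b ^ β.val) = 0 := by
    rw [h.add, map_pow_val h, map_pow_val h, hc]
  have hcen := (h.ker _).mp h1
  have hc1 : com (a ^ α.val * b ^ β.val) b = 1 := by
    simp only [com]
    rw [central_comm h hcen b]
    group
  have hc2 : com a (a ^ α.val * b ^ β.val) = 1 := by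
    simp only [com]
    rw [mul_assoc a _ a⁻¹, central_comm h hcen a⁻¹]
    group
  have hbb : com b b = 1 := by simp [com]
  have haa : com a a = 1 := by simp [com]
  rw [com_mul_left h, com_pow_left h, com_pow_left h, hbb, one_pow, mul_one] at hc1
  rw [com_mul_right h, com_pow_right h, com_pow_right h, haa, one_pow, one_mul] at hc2
  have ho := orderOf_com h hab
  constructor
  · have := orderOf_dvd_of_pow_eq_one hc1
    rw [ho] at this
    exact (ZMod.natCast_eq_zero_iff α.val p).mpr this |>.symm ▸ (ZMod.natCast_zmod_val α).symm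
  · have := orderOf_dvd_of_pow_eq_one hc2
    rw [ho] at this
    exact (ZMod.natCast_eq_zero_iff β.val p).mpr this |>.symm ▸ (ZMod.natCast_zmod_val β).symm

omit h in
/-- Independent vectors of a plane span it. -/
theorem exists_coords (hV : Module.finrank (ZMod p) V = 2) {u v : V}
    (hi : ∀ α β : ZMod p, α • u + β • v = 0 → α = 0 ∧ β = 0) (w : V) :
    ∃ α β : ZMod p, w = α • u + β • v := by
  haveI : Module.Finite (ZMod p) V := Module.finite_of_finrank_pos (by omega)
  have hli : LinearIndependent (ZMod p) ![u, v] := by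
    rw [LinearIndependent.pair_iff]
    exact hi
  have hspan := hli.span_eq_top_of_card_eq_finrank' (by simp [hV])
  have hw : w ∈ Submodule.span (ZMod p) (Set.range ![u, v]) := by
    rw [hspan]
    trivial
  simp only [Matrix.range_cons, Matrix.range_empty, Set.union_empty] at hw
  rw [Set.singleton_union] at hw
  obtain ⟨a, b, hab⟩ := Submodule.mem_span_pair.mp hw
  exact ⟨a, b, hab.symm⟩

omit h in
/-- If a non-scalar `M₂` has eigenvector `v₂` for `s`, then everything in the `s`-eigenspace is a multiple of `v₂`. -/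
theorem eigen_line (hV : Module.finrank (ZMod p) V = 2) (M : V ≃ₗ[ZMod p] V) (hM : ¬ IsScal M) {v : V} (hv : v ≠ 0) {s : ZMod p}
    (hsv : M v = s • v) {u : V} (hu : M u = s • u) : ∃ c : ZMod p, u = c • v := by
  by_contra hcon
  push Not at hcon
  have hi : ∀ α β : ZMod p, α • v + β • u = 0 → α = 0 ∧ β = 0 := by
    intro α β hab
    by_cases hβ : β = 0
    · subst hβ
      simp only [zero_smul, add_zero] at hab
      exact ⟨(smul_eq_zero.mp hab).resolve_right hv, rfl⟩
    · exfalso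
      apply hcon ((-α / β))
      have : β • u = - (α • v) := eq_neg_of_add_eq_zero_right hab
      have h2 : u = β⁻¹ • (β • u) := by
        rw [smul_smul, inv_mul_cancel₀ hβ, one_smul]
      rw [h2, this, smul_neg, smul_smul, ← neg_smul]
      congr 1
      field_simp
  apply hM
  refine ⟨s, fun w => ?_⟩
  obtain ⟨α, β, rfl⟩ := exists_coords hV hi w
  rw [map_add, map_smul, map_smul, hsv, hu, smul_add, smul_comm α, smul_comm β]

omit h in
/-- Three pairwise independent eigenvector lines prevent commuting. -/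
theorem not_comm_both (hV : Module.finrank (ZMod p) V = 2) (M₁ M₂ M₃ : V ≃ₗ[ZMod p] V)
    (h1 : ¬ IsScal M₁) (h2 : ¬ IsScal M₂) (h3 : ¬ IsScal M₃) {v₁ v₂ v₃ : V} {s : ZMod p}
    (hv₁ : M₁ v₁ = s • v₁) (hv₂ : M₂ v₂ = s • v₂) (hv₃ : M₃ v₃ = s • v₃)
    (h12 : ∀ α β : ZMod p, α • v₁ + β • v₂ = 0 → α = 0 ∧ β = 0)
    (h13 : ∀ α β : ZMod p, α • v₁ + β • v₃ = 0 → α = 0 ∧ β = 0)
    (h23 : ∀ α β : ZMod p, α • v₂ + β • v₃ = 0 → α = 0 ∧ β = 0) :
    ¬ (Commute M₁ M₂ ∧ Commute M₁ M₃) := by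
  rintro ⟨hc2, hc3⟩
  have hne : ∀ {u w : V}, (∀ α β : ZMod p, α • u + β • w = 0 → α = 0 ∧ β = 0) → w ≠ 0 := by
    intro u w hi hw
    have := hi 0 1 (by simp [hw])
    exact one_ne_zero this.2
  have hv₂0 : v₂ ≠ 0 := hne h12
  have hv₃0 : v₃ ≠ 0 := hne h13
  obtain ⟨μ₂, hμ₂⟩ : ∃ c : ZMod p, M₁ v₂ = c • v₂ := by
    refine eigen_line hV M₂ h2 hv₂0 hv₂ ?_
    have : M₂ (M₁ v₂) = M₁ (M₂ v₂) := by
      have := LinearEquiv.congr_fun hc2.eq.symm v₂
      simpa using this
    rw [this, hv₂, map_smul]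
  obtain ⟨μ₃, hμ₃⟩ : ∃ c : ZMod p, M₁ v₃ = c • v₃ := by
    refine eigen_line hV M₃ h3 hv₃0 hv₃ ?_
    have : M₃ (M₁ v₃) = M₁ (M₃ v₃) := by
      have := LinearEquiv.congr_fun hc3.eq.symm v₃
      simpa using this
    rw [this, hv₃, map_smul]
  obtain ⟨α, β, hαβ⟩ := exists_coords hV h12 v₃
  have hβ : β ≠ 0 := by
    rintro rfl
    have := h13 α (-1) (by rw [hαβ]; simp)
    exact one_ne_zero (neg_eq_zero.mp this.2)
  have hα : α ≠ 0 := by
    rintro rfl
    have := h23 β (-1) (by rw [hαβ]; simp)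
    exact one_ne_zero (neg_eq_zero.mp this.2)
  have h4 : M₁ v₃ = α • (s • v₁) + β • (μ₂ • v₂) := by
    rw [hαβ, map_add, map_smul, map_smul, hv₁, hμ₂]
  rw [hμ₃, hαβ, smul_add, smul_smul, smul_smul, smul_smul, smul_smul] at h4
  have h5 : (μ₃ * α - α * s) • v₁ + (μ₃ * β - β * μ₂) • v₂ = 0 := by
    rw [sub_smul, sub_smul]
    have : (μ₃ * α) • v₁ + (μ₃ * β) • v₂ - ((α * s) • v₁ + (β * μ₂) • v₂) = 0 := sub_eq_zero.mpr h4
    rw [← this]
    abel
  obtain ⟨e1, e2⟩ := h12 _ _ h5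
  have hs : μ₃ = s := by
    have : α * (μ₃ - s) = 0 := by linear_combination e1
    exact sub_eq_zero.mp ((mul_eq_zero.mp this).resolve_left hα)
  have hm : μ₃ = μ₂ := by
    have : β * (μ₃ - μ₂) = 0 := by linear_combination e2
    exact sub_eq_zero.mp ((mul_eq_zero.mp this).resolve_left hβ)
  apply h1
  refine ⟨s, fun w => ?_⟩
  obtain ⟨a, b, rfl⟩ := exists_coords hV h12 w
  rw [map_add, map_smul, map_smul, hv₁, hμ₂, ← hm, hs, smul_add, smul_comm a, smul_comm b]

theorem exists_eq_mul_center {a b : Q} (hab : π a = π b) : ∃ ζ ∈ Subgroup.center Q, a = b * ζ := by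
  refine ⟨b⁻¹ * a, ?_, by group⟩
  rw [← h.ker, h.add, map_inv h, hab]
  abel

/-- The key computation for an automorphism with `x ↦ x^s` and `ζ ↦ ζ^t`, `st = 1`: scalars on the plane among its
powers force `t^{3k} = 1`. -/
theorem scal_lemma (α : MulAut Q) (f : V ≃ₗ[ZMod p] V) (hf : ∀ u, f (π u) = π (α u)) {x : Q}
    (hx : x ∉ Subgroup.center Q) {t s : ZMod p} (hst : s * t = 1)
    (hαc : ∀ ζ ∈ Subgroup.center Q, α ζ = ζ ^ t.val) (hαx : α x = x ^ s.val) {k : ℕ} (hk : IsScal (f ^ k)) :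
    t ^ (3 * k) = 1 := by
  obtain ⟨c, hc⟩ := hk
  have hiter : ∀ (k : ℕ) (u : Q), (f ^ k) (π u) = π ((α ^ k) u) := by
    intro k
    induction k with
    | zero => intro u; simp
    | succ k ih =>
      intro u
      rw [pow_succ, pow_succ]
      show (f ^ k) (f (π u)) = π ((α ^ k) (α u))
      rw [hf, ih]
  have hcenter : ∀ (k : ℕ), ∀ ζ ∈ Subgroup.center Q, (α ^ k) ζ = ζ ^ (t ^ k).val := by
    intro k
    induction k with
    | zero =>
      intro ζ _
      have h1 : (1 : ZMod p).val = 1 := ZMod.val_one p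
      simp [h1]
    | succ k ih =>
      intro ζ hζ
      rw [pow_succ, pow_succ]
      show (α ^ k) (α ζ) = ζ ^ (t ^ k * t).val
      rw [hαc ζ hζ, _root_.map_pow, ih ζ hζ, pow_val_mul h, pow_mul]
  have hxpow : ∀ (k : ℕ), (α ^ k) x = x ^ (s ^ k).val := by
    intro k
    induction k with
    | zero =>
      have h1 : (1 : ZMod p).val = 1 := ZMod.val_one p
      simp [h1]
    | succ k ih =>
      rw [pow_succ, pow_succ]
      show (α ^ k) (α x) = x ^ (s ^ k * s).val
      rw [hαx, _root_.map_pow, ih, pow_val_mul h, pow_mul]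
  obtain ⟨y, hy⟩ : ∃ y, ¬ Commute x y := by
    by_contra hcon
    push Not at hcon
    exact hx (Subgroup.mem_center_iff.mpr fun g => hcon g |>.symm.eq |> fun e => e.symm ▸ rfl)
  set κ := com x y with hκ
  have hκc : κ ∈ Subgroup.center Q := com_mem h x y
  have hord : orderOf κ = p := orderOf_com h hy
  -- `β = α^k`
  set β := α ^ k with hβ
  have hβu : ∀ u, π (β u) = c • π u := by
    intro u
    rw [← hiter k u, hc]
  have hx0 : π x ≠ 0 := fun h0 => hx ((h.ker x).mp h0)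
  obtain ⟨ζ₁, hζ₁, he₁⟩ := exists_eq_mul_center h (a := β x) (b := x ^ c.val) (by rw [hβu, map_pow_val h])
  obtain ⟨ζ₂, hζ₂, he₂⟩ := exists_eq_mul_center h (a := β y) (b := y ^ c.val) (by rw [hβu, map_pow_val h])
  have h1 : β κ = κ ^ (c * c).val := by
    rw [hκ, map_com h, he₁, he₂, com_central_left h _ _ hζ₁, com_central_right h _ _ hζ₂, com_pow_pow h,
      pow_val_mul h]
  have h2 : β κ = κ ^ (t ^ k).val := hcenter k κ hκc
  have h3 : t ^ k = c * c := by
    have h4 : κ ^ (t ^ k).val = κ ^ (c * c).val := by rw [← h1, h2]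
    rw [pow_eq_pow_iff_modEq, hord] at h4
    have hlt1 : (t ^ k).val < p := ZMod.val_lt _
    have hlt2 : (c * c).val < p := ZMod.val_lt _
    exact ZMod.val_injective p (Nat.ModEq.eq_of_lt_of_lt h4 hlt1 hlt2)
  have h5 : s ^ k = c := by
    have h6 := hβu x
    rw [hβ, hxpow, map_pow_val h] at h6
    have h7 : (s ^ k - c) • π x = 0 := by
      rw [sub_smul, h6, sub_self]
    exact sub_eq_zero.mp ((smul_eq_zero.mp h7).resolve_right hx0)
  have h8 : (s * t) ^ (2 * k) = 1 := by rw [hst, one_pow]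
  calc t ^ (3 * k) = t ^ k * (t ^ (2 * k)) := by rw [← pow_add]; congr 1; ring
    _ = (s ^ k * s ^ k) * t ^ (2 * k) := by rw [h3, h5]
    _ = (s * t) ^ (2 * k) := by rw [mul_pow, pow_mul' s]; ring
    _ = 1 := h8

omit h in
theorem two_ne_zero' (hp2 : p ≠ 2) : (2 : ZMod p) ≠ 0 := by
  intro h0
  have : ((2 : ℕ) : ZMod p) = 0 := by exact_mod_cast h0
  rw [ZMod.natCast_eq_zero_iff] at this
  exact hp2 ((Nat.prime_dvd_prime_iff_eq hp.out Nat.prime_two).mp this)

section final

variable {Γ : Type*} [Group Γ] (ρ : Γ →* (V ≃ₗ[ZMod p] V)) (act : Γ →* MulAut Q)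

/-- **Three lines.** -/
theorem three_lines (hρ : ∀ g u, ρ g (π u) = π (act g u)) [Finite ρ.range] (hcop : ¬ p ∣ Nat.card ρ.range)
    (hp2 : p ≠ 2) (w : Fin 3 → Γ) (x : Fin 3 → Q) (hnc : ∀ i j, i ≠ j → ¬ Commute (x i) (x j))
    {t s : ZMod p} (hst : s * t = 1)
    (hc1 : ∀ i, ∀ ζ ∈ Subgroup.center Q, act (w i) ζ = ζ ^ t.val)
    (hc2 : ∀ i, act (w i) (x i) = x i ^ s.val)
    (htt : ∀ k, 0 < k → k < 6 → t ^ (3 * k) ≠ 1) : False := by
  have hxc : ∀ i, x i ∉ Subgroup.center Q := by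
    intro i hi
    obtain ⟨j, hj⟩ : ∃ j, i ≠ j := by
      fin_cases i
      · exact ⟨1, by decide⟩
      · exact ⟨0, by decide⟩
      · exact ⟨0, by decide⟩
    exact hnc i j hj ((Subgroup.mem_center_iff.mp hi (x j)).symm)
  have hscal : ∀ i k, IsScal ((ρ (w i)) ^ k) → t ^ (3 * k) = 1 := by
    intro i k hk
    exact scal_lemma h (act (w i)) (ρ (w i)) (hρ (w i)) (hxc i) hst (hc1 i) (hc2 i) hk
  have hns : ∀ i, ¬ IsScal (ρ (w i)) := by
    intro i hi
    exact htt 1 (by norm_num) (by norm_num) (hscal i 1 (by simpa using hi))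
  have hev : ∀ i, ρ (w i) (π (x i)) = s • π (x i) := by
    intro i
    rw [hρ, hc2, map_pow_val h]
  have hnotboth := not_comm_both h.fin (ρ (w 0)) (ρ (w 1)) (ρ (w 2)) (hns 0) (hns 1) (hns 2)
    (hev 0) (hev 1) (hev 2)
    (indep_of_not_comm h (hnc 0 1 (by decide)))
    (indep_of_not_comm h (hnc 0 2 (by decide)))
    (indep_of_not_comm h (hnc 1 2 (by decide)))
  have hcard : ((Nat.card ρ.range : ℕ) : ZMod p) ≠ 0 := by
    rw [Ne, ZMod.natCast_eq_zero_iff]
    exact hcop
  let a : Fin 3 → ρ.range := fun i => ⟨ρ (w i), w i, rfl⟩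
  have hpw : ∀ i k, IsScal (ρ.range.subtype (a i ^ k)) → t ^ (3 * k) = 1 := by
    intro i k hk
    apply hscal i k
    simpa [a] using hk
  have hsm : ∀ i, ∀ k, 0 < k → k < 6 → ¬ IsScal (ρ.range.subtype (a i ^ k)) := by
    intro i k h0 h6 hs
    exact htt k h0 h6 (hpw i k hs)
  by_cases hc12 : Commute (ρ (w 0)) (ρ (w 1))
  · have hc13 : ¬ Commute (ρ (w 0)) (ρ (w 2)) := fun h13 => hnotboth ⟨hc12, h13⟩
    exact no_large_pair_plane (two_ne_zero' hp2) h.fin ρ.range.subtype hcard (a 0) (a 2) hc13 (hsm 0) (hsm 2)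
  · exact no_large_pair_plane (two_ne_zero' hp2) h.fin ρ.range.subtype hcard (a 0) (a 1) hc12 (hsm 0) (hsm 1)

omit h in
/-- Selection of an independent set from a graph with degrees at most one. -/
theorem exists_four (adj : Fin 7 → Fin 7 → Prop) (hsymm : ∀ i j, adj i j → adj j i)
    (hdeg : ∀ i j l, i ≠ j → i ≠ l → j ≠ l → ¬ (adj i j ∧ adj i l)) :
    ∃ f : Fin 4 → Fin 7, ∀ i j, i ≠ j → f i ≠ f j ∧ ¬ adj (f i) (f j) := by
  classical
  have step : ∀ (S : Finset (Fin 7)) (a : Fin 7), ∃ S' : Finset (Fin 7), S' ⊆ S ∧ S.card ≤ S'.card + 2 ∧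
      a ∉ S' ∧ ∀ b ∈ S', ¬ adj a b := by
    intro S a
    refine ⟨(S.erase a).filter (fun b => ¬ adj a b), ?_, ?_, ?_, ?_⟩
    · exact (Finset.filter_subset _ _).trans (Finset.erase_subset _ _)
    · have h1 : ((S.erase a).filter (fun b => adj a b)).card ≤ 1 := by
        rw [Finset.card_le_one]
        intro b hb c hc
        simp only [Finset.mem_filter, Finset.mem_erase] at hb hc
        by_contra hbc
        exact hdeg a b c (Ne.symm hb.1.1) (Ne.symm hc.1.1) hbc ⟨hb.2, hc.2⟩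
      have h2 := Finset.card_filter_add_card_filter_not (s := S.erase a) (fun b => adj a b)
      have h3 : (S.erase a).card + 1 ≥ S.card := by
        have := Finset.pred_card_le_card_erase (s := S) (a := a)
        omega
      omega
    · simp
    · intro b hb
      exact (Finset.mem_filter.mp hb).2
  obtain ⟨S₁, -, h₁, h₁a, h₁b⟩ := step Finset.univ 0
  have hc₁ : 5 ≤ S₁.card := by simp at h₁; omega
  obtain ⟨a₂, ha₂⟩ : S₁.Nonempty := Finset.card_pos.mp (by omega)
  obtain ⟨S₂, hS₂, h₂, h₂a, h₂b⟩ := step S₁ a₂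
  have hc₂ : 3 ≤ S₂.card := by omega
  obtain ⟨a₃, ha₃⟩ : S₂.Nonempty := Finset.card_pos.mp (by omega)
  obtain ⟨S₃, hS₃, h₃, h₃a, h₃b⟩ := step S₂ a₃
  have hc₃ : 1 ≤ S₃.card := by omega
  obtain ⟨a₄, ha₄⟩ : S₃.Nonempty := Finset.card_pos.mp (by omega)
  have h03 : a₃ ∈ S₁ := hS₂ ha₃
  have h04 : a₄ ∈ S₁ := hS₂ (hS₃ ha₄)
  have h24 : a₄ ∈ S₂ := hS₃ ha₄
  have ne : ∀ {a b : Fin 7} {S : Finset (Fin 7)}, a ∉ S → b ∈ S → a ≠ b := by
    rintro a b S ha hb rfl
    exact ha hb
  have key : ∀ i j : Fin 4, i < j → ![(0 : Fin 7), a₂, a₃, a₄] i ≠ ![(0 : Fin 7), a₂, a₃, a₄] j ∧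
      ¬ adj (![(0 : Fin 7), a₂, a₃, a₄] i) (![(0 : Fin 7), a₂, a₃, a₄] j) := by
    intro i j hij
    fin_cases i <;> fin_cases j <;> first
      | exact absurd hij (by decide)
      | skip
    · exact ⟨ne h₁a ha₂, h₁b _ ha₂⟩
    · exact ⟨ne h₁a h03, h₁b _ h03⟩
    · exact ⟨ne h₁a h04, h₁b _ h04⟩
    · exact ⟨ne h₂a ha₃, h₂b _ ha₃⟩
    · exact ⟨ne h₂a h24, h₂b _ h24⟩
    · exact ⟨ne h₃a ha₄, h₃b _ ha₄⟩
  refine ⟨![(0 : Fin 7), a₂, a₃, a₄], fun i j hij => ?_⟩
  rcases lt_or_gt_of_ne hij with hlt | hlt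
  · exact key i j hlt
  · obtain ⟨h1, h2⟩ := key j i hlt
    exact ⟨Ne.symm h1, fun hadj => h2 (hsymm _ _ hadj)⟩

/-- **Seven lines** with `t` of order divisible by `12`. -/
theorem seven_lines (hρ : ∀ g u, ρ g (π u) = π (act g u)) [Finite ρ.range] (hcop : ¬ p ∣ Nat.card ρ.range)
    (hp2 : p ≠ 2) (w : Fin 7 → Γ) (x : Fin 7 → Q) (hnc : ∀ i j, i ≠ j → ¬ Commute (x i) (x j))
    {t s : ZMod p} (hst : s * t = 1)
    (hc1 : ∀ i, ∀ ζ ∈ Subgroup.center Q, act (w i) ζ = ζ ^ t.val)
    (hc2 : ∀ i, act (w i) (x i) = x i ^ s.val)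
    (htt : ∀ k, 0 < k → t ^ (3 * k) = 1 → 4 ∣ k) : False := by
  have hxc : ∀ i, x i ∉ Subgroup.center Q := by
    intro i hi
    obtain ⟨j, hj⟩ : ∃ j, i ≠ j := by
      by_cases h0 : i = 0
      · exact ⟨1, by rw [h0]; decide⟩
      · exact ⟨0, h0⟩
    exact hnc i j hj ((Subgroup.mem_center_iff.mp hi (x j)).symm)
  have hscal : ∀ i k, IsScal ((ρ (w i)) ^ k) → t ^ (3 * k) = 1 := by
    intro i k hk
    exact scal_lemma h (act (w i)) (ρ (w i)) (hρ (w i)) (hxc i) hst (hc1 i) (hc2 i) hk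
  have hns : ∀ i, ¬ IsScal (ρ (w i)) := by
    intro i hi
    have := htt 1 (by norm_num) (hscal i 1 (by simpa using hi))
    omega
  have hev : ∀ i, ρ (w i) (π (x i)) = s • π (x i) := by
    intro i
    rw [hρ, hc2, map_pow_val h]
  obtain ⟨f, hf⟩ := exists_four (fun i j => Commute (ρ (w i)) (ρ (w j))) (fun i j hij => hij.symm) (by
    intro i j l hij hil hjl
    exact not_comm_both h.fin (ρ (w i)) (ρ (w j)) (ρ (w l)) (hns i) (hns j) (hns l)
      (hev i) (hev j) (hev l)
      (indep_of_not_comm h (hnc i j hij))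
      (indep_of_not_comm h (hnc i l hil))
      (indep_of_not_comm h (hnc j l hjl)))
  have hcard : ((Nat.card ρ.range : ℕ) : ZMod p) ≠ 0 := by
    rw [Ne, ZMod.natCast_eq_zero_iff]
    exact hcop
  let a : Fin 4 → ρ.range := fun i => ⟨ρ (w (f i)), w (f i), rfl⟩
  refine no_large_four_plane (two_ne_zero' hp2) h.fin ρ.range.subtype hcard a ?_ ?_
  · intro i j hij
    exact (hf i j hij).2
  · intro i k hk hs
    apply htt k hk
    apply hscal (f i) k
    simpa [a] using hs

end final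

end Cfsg.Agent.Lib.ExtraP3
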