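import Mathlib
import Cfsg.Agent.Lib.SylowConjLemmas
import Cfsg.Agent.Lib.Replacement

/-!
# Transvections on an elementary abelian group of rank two, and a Frattini argument producing tori in
the normalizer of a Sylow subgroup.
-/

set_option autoImplicit false
set_option linter.all false

namespace Cfsg.Agent.Lib.SL2Frattini

open Cfsg.Agent.Lib.SylowConjLemmas

variable {G : Type*} [Group G] {p : ℕ} [hp : Fact p.Prime]

/-- The parametrization of `⟨z, x⟩`. -/
def tau (z x : G) (v : Fin 2 → ZMod p) : G := z ^ (v 0).val * x ^ (v 1).val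

/-- `g` acts on `⟨z, x⟩` by the matrix `M`. -/
def Acts (z x g : G) (M : Matrix (Fin 2) (Fin 2) (ZMod p)) : Prop :=
  ∀ v, g * tau z x v * g⁻¹ = tau z x (M.mulVec v)

variable {z x : G}

theorem pow_val_add' {u : G} (hu : u ^ p = 1) (a b : ZMod p) : u ^ (a + b).val = u ^ a.val * u ^ b.val := by
  rw [ZMod.val_add, ← pow_add]
  exact (pow_eq_pow_mod _ hu).symm

theorem pow_val_mul' {u : G} (hu : u ^ p = 1) (a b : ZMod p) : u ^ (a * b).val = (u ^ a.val) ^ b.val := by
  rw [ZMod.val_mul, ← pow_mul]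
  exact (pow_eq_pow_mod _ hu).symm

theorem tau_add (hzx : Commute z x) (hz : z ^ p = 1) (hx : x ^ p = 1) (v w : Fin 2 → ZMod p) :
    tau z x (v + w) = tau z x v * tau z x w := by
  simp only [tau, Pi.add_apply]
  rw [pow_val_add' hz, pow_val_add' hx]
  have hc : Commute (z ^ (w 0).val) (x ^ (v 1).val) := hzx.pow_pow _ _
  calc z ^ (v 0).val * z ^ (w 0).val * (x ^ (v 1).val * x ^ (w 1).val)
      = z ^ (v 0).val * (z ^ (w 0).val * x ^ (v 1).val) * x ^ (w 1).val := by group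
    _ = z ^ (v 0).val * (x ^ (v 1).val * z ^ (w 0).val) * x ^ (w 1).val := by rw [hc.eq]
    _ = _ := by group

theorem tau_smul (hzx : Commute z x) (hz : z ^ p = 1) (hx : x ^ p = 1) (a : ZMod p) (v : Fin 2 → ZMod p) :
    tau z x (a • v) = tau z x v ^ a.val := by
  simp only [tau, Pi.smul_apply, smul_eq_mul]
  rw [mul_comm a, mul_comm a, pow_val_mul' hz, pow_val_mul' hx]
  exact ((hzx.pow_pow _ _).mul_pow _).symm

theorem Acts.mul {g g' : G} {M M' : Matrix (Fin 2) (Fin 2) (ZMod p)} (h : Acts z x g M) (h' : Acts z x g' M') :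
    Acts z x (g * g') (M * M') := by
  intro v
  have e : g * g' * tau z x v * (g * g')⁻¹ = g * (g' * tau z x v * g'⁻¹) * g⁻¹ := by group
  rw [e, h', h, Matrix.mulVec_mulVec]

theorem Acts.one : Acts (p := p) z x 1 1 := by
  intro v
  simp

theorem Acts.pow {g : G} {M : Matrix (Fin 2) (Fin 2) (ZMod p)} (h : Acts z x g M) (n : ℕ) :
    Acts z x (g ^ n) (M ^ n) := by
  induction n with
  | zero => simpa using Acts.one
  | succ n ih =>
    rw [pow_succ, pow_succ]
    exact ih.mul h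

theorem Acts.inv {g : G} {M N : Matrix (Fin 2) (Fin 2) (ZMod p)} (h : Acts z x g M) (hMN : M * N = 1) :
    Acts z x g⁻¹ N := by
  intro v
  have h1 := h (N.mulVec v)
  rw [Matrix.mulVec_mulVec, hMN, Matrix.one_mulVec] at h1
  rw [← h1]
  group

theorem Acts.of_gens (hzx : Commute z x) (hz : z ^ p = 1) (hx : x ^ p = 1) {g : G} {a b c d : ZMod p}
    (h0 : g * z * g⁻¹ = tau z x ![a, c]) (h1 : g * x * g⁻¹ = tau z x ![b, d]) :
    Acts z x g !![a, b; c, d] := by
  intro v
  have e : g * tau z x v * g⁻¹ = (g * z * g⁻¹) ^ (v 0).val * (g * x * g⁻¹) ^ (v 1).val := by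
    rw [conj_pow, conj_pow]
    simp only [tau]
    group
  rw [e, h0, h1, ← tau_smul hzx hz hx, ← tau_smul hzx hz hx, ← tau_add hzx hz hx]
  congr 1
  funext i
  fin_cases i
  · simp [Matrix.mulVec, dotProduct, Fin.sum_univ_two]
    ring
  · simp [Matrix.mulVec, dotProduct, Fin.sum_univ_two]
    ring

/-- The upper transvection. -/
def E12 (a : ZMod p) : Matrix (Fin 2) (Fin 2) (ZMod p) := !![1, a; 0, 1]

/-- The lower transvection. -/
def E21 (a : ZMod p) : Matrix (Fin 2) (Fin 2) (ZMod p) := !![1, 0; a, 1]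

/-- The diagonal. -/
def Dg (t : ZMod p) : Matrix (Fin 2) (Fin 2) (ZMod p) := !![t, 0; 0, t⁻¹]

theorem E12_mul (a b : ZMod p) : E12 a * E12 b = E12 (a + b) := by
  ext i j
  fin_cases i <;> fin_cases j <;> simp [E12, Matrix.mul_apply, Fin.sum_univ_two, add_comm]

theorem E21_mul (a b : ZMod p) : E21 a * E21 b = E21 (a + b) := by
  ext i j
  fin_cases i <;> fin_cases j <;> simp [E21, Matrix.mul_apply, Fin.sum_univ_two, add_comm]

theorem E12_zero : E12 (0 : ZMod p) = 1 := by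
  ext i j
  fin_cases i <;> fin_cases j <;> simp [E12]

theorem E21_zero : E21 (0 : ZMod p) = 1 := by
  ext i j
  fin_cases i <;> fin_cases j <;> simp [E21]

theorem E12_pow (a : ZMod p) (n : ℕ) : E12 a ^ n = E12 ((n : ZMod p) * a) := by
  induction n with
  | zero => simp [E12_zero]
  | succ n ih =>
    rw [pow_succ, ih, E12_mul]
    congr 1
    push_cast
    ring

theorem E21_pow (a : ZMod p) (n : ℕ) : E21 a ^ n = E21 ((n : ZMod p) * a) := by
  induction n with
  | zero => simp [E21_zero]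
  | succ n ih =>
    rw [pow_succ, ih, E21_mul]
    congr 1
    push_cast
    ring

theorem Dg_mul_inv {t : ZMod p} (ht : t ≠ 0) : Dg t * Dg t⁻¹ = 1 := by
  ext i j
  fin_cases i <;> fin_cases j <;> simp [Dg, Matrix.mul_apply, Fin.sum_univ_two, ht]

theorem Dg_conj {t : ZMod p} (ht : t ≠ 0) (b : ZMod p) : Dg t * E12 b * Dg t⁻¹ = E12 (t ^ 2 * b) := by
  ext i j
  fin_cases i <;> fin_cases j <;> simp [Dg, E12, Matrix.mul_apply, Fin.sum_univ_two, ht]
  · field_simp

theorem Dg_eq {t : ZMod p} (ht : t ≠ 0) :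
    Dg t = E12 t * E21 (-t⁻¹) * E12 t * (E12 (-1) * E21 1 * E12 (-1)) := by
  ext i j
  fin_cases i <;> fin_cases j <;> simp [Dg, E12, E21, Matrix.mul_apply, Fin.sum_univ_two, ht] <;> field_simp <;> ring

theorem tau_e0 : tau (p := p) z x ![1, 0] = z := by
  simp [tau, ZMod.val_one]

theorem tau_e1 : tau (p := p) z x ![0, 1] = x := by
  simp [tau, ZMod.val_one]

theorem Acts.z_eq {g : G} {M : Matrix (Fin 2) (Fin 2) (ZMod p)} (h : Acts z x g M) :
    g * z * g⁻¹ = tau z x ![M 0 0, M 1 0] := by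
  have := h ![1, 0]
  rw [tau_e0] at this
  rw [this]
  congr 1
  funext i
  fin_cases i <;> simp [Matrix.mulVec, dotProduct, Fin.sum_univ_two]

theorem Acts.x_eq {g : G} {M : Matrix (Fin 2) (Fin 2) (ZMod p)} (h : Acts z x g M) :
    g * x * g⁻¹ = tau z x ![M 0 1, M 1 1] := by
  have := h ![0, 1]
  rw [tau_e1] at this
  rw [this]
  congr 1
  funext i
  fin_cases i <;> simp [Matrix.mulVec, dotProduct, Fin.sum_univ_two]

/-- The subgroup of elements acting by upper transvections. -/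
def upper (z x : G) : Subgroup G where
  carrier := {g | ∃ b : ZMod p, Acts z x g (E12 b)}
  one_mem' := ⟨0, by rw [E12_zero]; exact Acts.one⟩
  mul_mem' := by
    rintro g g' ⟨b, hb⟩ ⟨b', hb'⟩
    exact ⟨b + b', by rw [← E12_mul]; exact hb.mul hb'⟩
  inv_mem' := by
    rintro g ⟨b, hb⟩
    refine ⟨-b, hb.inv ?_⟩
    rw [E12_mul]
    simp [E12_zero]

/-- **The Frattini argument.** -/
theorem exists_torus [Finite G] (S : Sylow p G) {y h : G} (hzx : Commute z x) (hz : z ^ p = 1) (hx : x ^ p = 1)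
    (hS : ∀ u ∈ (S : Subgroup G), u * z * u⁻¹ = z ∧ ∃ b : ZMod p, u * x * u⁻¹ = z ^ b.val * x)
    (hy : y ∈ (S : Subgroup G)) (hyx : y * x * y⁻¹ = z * x)
    {c : ZMod p} (hc : c ≠ 0) (hhx : h * x * h⁻¹ = x) (hhz : h * z * h⁻¹ = z * x ^ c.val)
    {t : ZMod p} (ht : t ≠ 0) :
    ∃ w ∈ Subgroup.normalizer ((S : Subgroup G) : Set G), w * z * w⁻¹ = z ^ t.val ∧ w * x * w⁻¹ = x ^ (t⁻¹).val := by
  have hval1 : (1 : ZMod p).val = 1 := ZMod.val_one p
  have hup : ∀ (u : G) (b : ZMod p), u * z * u⁻¹ = z → u * x * u⁻¹ = z ^ b.val * x → Acts z x u (E12 b) := by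
    intro u b h1 h2
    apply Acts.of_gens hzx hz hx
    · rw [h1]
      simp [tau, hval1]
    · rw [h2]
      simp [tau, hval1]
  have hyz : y * z * y⁻¹ = z := (hS y hy).1
  have hyA : Acts (p := p) z x y (E12 1) := hup y 1 hyz (by rw [hyx, hval1, pow_one])
  have hhA : Acts (p := p) z x h (E21 c) := by
    apply Acts.of_gens hzx hz hx
    · rw [hhz]
      simp [tau, hval1]
    · rw [hhx]
      simp [tau, hval1]
  have hyN : ∀ a : ZMod p, Acts z x (y ^ a.val) (E12 a) := by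
    intro a
    have := hyA.pow a.val
    rwa [E12_pow, ZMod.natCast_zmod_val, mul_one] at this
  have hhN : ∀ a : ZMod p, Acts z x (h ^ (a / c).val) (E21 a) := by
    intro a
    have := hhA.pow (a / c).val
    rwa [E21_pow, ZMod.natCast_zmod_val, div_mul_cancel₀ _ hc] at this
  -- the element acting diagonally
  obtain ⟨d, hd⟩ : ∃ d : G, Acts z x d (Dg t) := by
    have := (((hyN t).mul (hhN (-t⁻¹))).mul (hyN t)).mul (((hyN (-1)).mul (hhN 1)).mul (hyN (-1)))
    rw [← Dg_eq ht] at this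
    exact ⟨_, this⟩
  have hdi : Acts z x d⁻¹ (Dg t⁻¹) := hd.inv (Dg_mul_inv ht)
  have hSK : (S : Subgroup G) ≤ upper (p := p) z x := by
    intro u hu
    obtain ⟨h1, b, h2⟩ := hS u hu
    exact ⟨b, hup u b h1 h2⟩
  let T : Subgroup G := (S : Subgroup G).map (MulAut.conj d).toMonoidHom
  have hT : IsPGroup p T := S.isPGroup'.map _
  have hTK : T ≤ upper (p := p) z x := by
    rintro _ ⟨u, hu, rfl⟩
    obtain ⟨b, hb⟩ := hSK hu
    refine ⟨t ^ 2 * b, ?_⟩
    rw [← Dg_conj ht]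
    exact (hd.mul hb).mul hdi
  obtain ⟨k, ⟨b, hk⟩, hkT⟩ := exists_conj_mem_of_le S (upper (p := p) z x) hSK T hT hTK
  -- the corrected element
  let w : G := (y ^ b.val)⁻¹ * k * d
  have hyi : Acts z x (y ^ b.val)⁻¹ (E12 (-b)) := (hyN b).inv (by rw [E12_mul]; simp [E12_zero])
  have hw : Acts z x w (Dg t) := by
    have := (hyi.mul hk).mul hd
    rwa [E12_mul, neg_add_cancel, E12_zero, one_mul] at this
  have hyb : y ^ b.val ∈ (S : Subgroup G) := (S : Subgroup G).pow_mem hy _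
  refine ⟨w, ?_, ?_, ?_⟩
  · apply Cfsg.Agent.Lib.Replacement.mem_normalizer_of_forall
    intro u hu
    have h1 := hkT (d * u * d⁻¹) ⟨u, hu, rfl⟩
    have e : w * u * w⁻¹ = (y ^ b.val)⁻¹ * (k * (d * u * d⁻¹) * k⁻¹) * (y ^ b.val)⁻¹⁻¹ := by
      simp only [w]
      group
    rw [e]
    exact (S : Subgroup G).mul_mem ((S : Subgroup G).mul_mem ((S : Subgroup G).inv_mem hyb) h1)
      ((S : Subgroup G).inv_mem ((S : Subgroup G).inv_mem hyb))
  · rw [hw.z_eq]
    simp [tau, Dg]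
  · rw [hw.x_eq]
    simp [tau, Dg]

end Cfsg.Agent.Lib.SL2Frattini
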