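import Mathlib
import Cfsg.Prelude.Def_Transfer
import Cfsg.Agent.Lib.ExtraP3
import Cfsg.Agent.Lib.FusionSL2
import Cfsg.Agent.Lib.SylowConjLemmas
import Cfsg.Agent.Lib.Replacement
import Cfsg.Agent.Lib.SL2Frattini

/-!
# Extraspecial Sylow subgroups of order `p³` and exponent `p`: the concrete plane, the group acting on it,
and a torus in the normalizer produced by transvections.
-/

set_option autoImplicit false
set_option linter.all false

namespace Cfsg.Agent.Lib.ExtraP3Local

open Cfsg Cfsg.Agent.Lib.GL2Torus Cfsg.Agent.Lib.ExtraP3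

variable {p : ℕ} [hp : Fact p.Prime]

section plane

variable {Q : Type*} [Group Q]

/-- The module structure on the abelianization. -/
@[reducible] def modV (hexp : ∀ u : Q, u ^ p = 1) : Module (ZMod p) (Additive (Abelianization Q)) :=
  AddCommGroup.zmodModule (fun x => by
    obtain ⟨u, hu⟩ := QuotientGroup.mk_surjective (Additive.toMul x)
    have e : x = Additive.ofMul (Abelianization.of u) := by
      rw [show Abelianization.of u = (u : Q ⧸ commutator Q) from rfl, hu]
      rfl
    rw [e, ← ofMul_pow, ← _root_.map_pow, hexp, _root_.map_one, ofMul_one])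

/-- The quotient map. -/
def piV (u : Q) : Additive (Abelianization Q) := Additive.ofMul (Abelianization.of u)

theorem exp_of_exponent [Finite Q] (hexp : Monoid.exponent Q = p) (u : Q) : u ^ p = 1 := by
  rw [← hexp]
  exact Monoid.pow_exponent_eq_one u

theorem plane_piV [Finite Q] [Module (ZMod p) (Additive (Abelianization Q))] (hE : Cfsg.IsExtraspecial p Q) (hcard : Nat.card Q = p ^ 3)
    (hexp : ∀ u : Q, u ^ p = 1) :
    Plane p (piV (Q := Q)) := by
  have hcomm : commutator Q = Subgroup.center Q := hE.1.2.2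
  refine ⟨fun u v => ?_, fun u => ?_, fun w => ?_, hexp, hE.2, ?_⟩
  · simp [piV]
  · rw [← hcomm]
    show Additive.ofMul (Abelianization.of u) = 0 ↔ _
    rw [show (0 : Additive (Abelianization Q)) = Additive.ofMul 1 from rfl, EmbeddingLike.apply_eq_iff_eq]
    rw [← Abelianization.ker_of, MonoidHom.mem_ker]
  · obtain ⟨u, hu⟩ := QuotientGroup.mk_surjective (Additive.toMul w)
    refine ⟨u, ?_⟩
    show Additive.ofMul (QuotientGroup.mk u) = w
    rw [hu]
    rfl
  · have h1 : Nat.card (Abelianization Q) * Nat.card (commutator Q) = Nat.card Q :=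
      (Subgroup.card_eq_card_quotient_mul_card_subgroup (commutator Q)).symm
    rw [hcomm, hE.2, hcard] at h1
    have hp0 := (hp.out).pos
    have h2 : Nat.card (Abelianization Q) = p ^ 2 := by
      apply Nat.eq_of_mul_eq_mul_right hp0
      rw [h1]
      ring
    haveI : Finite (Abelianization Q) := inferInstanceAs (Finite (Q ⧸ commutator Q))
    haveI : Finite (Additive (Abelianization Q)) := inferInstanceAs (Finite (Abelianization Q))
    apply Cfsg.Agent.Lib.FusionSL2.finrank_two_of_card (p := p)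
    rw [← h2]
    rfl

/-- Automorphisms act on the abelianization. -/
def abAut : MulAut Q →* MulAut (Abelianization Q) where
  toFun α := MulEquiv.abelianizationCongr α
  map_one' := by
    apply MulEquiv.toMonoidHom_injective
    exact Abelianization.hom_ext _ _ rfl
  map_mul' α β := by
    apply MulEquiv.toMonoidHom_injective
    exact Abelianization.hom_ext _ _ rfl

end plane

section lines

variable {G : Type*} [Group G] [Finite G]

/-- The action of the normalizer on the plane. -/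
def rhoV (P : Subgroup G) [Module (ZMod p) (Additive (Abelianization P))] :
    Subgroup.normalizer (P : Set G) →* (Additive (Abelianization P) ≃ₗ[ZMod p] Additive (Abelianization P)) :=
  (Cfsg.Agent.Lib.FusionSL2.convHom (p := p) (Abelianization P)).comp (abAut.comp P.normalizerMonoidHom)

theorem rhoV_apply (P : Subgroup G) [Module (ZMod p) (Additive (Abelianization P))] (g : Subgroup.normalizer (P : Set G)) (u : P) :
    rhoV (p := p) P g (piV u) = piV (P.normalizerMonoidHom g u) := rfl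

theorem act_coe (P : Subgroup G) (g : Subgroup.normalizer (P : Set G)) (u : P) :
    ((P.normalizerMonoidHom g u : P) : G) = (g : G) * (u : G) * (g : G)⁻¹ := rfl

theorem not_dvd_range (P : Sylow p G) (hexp : ∀ u : (P : Subgroup G), u ^ p = 1)
    [Module (ZMod p) (Additive (Abelianization (P : Subgroup G)))]
    (hE : Cfsg.IsExtraspecial p (P : Subgroup G)) (hcard : Nat.card (P : Subgroup G) = p ^ 3) :
    ¬ p ∣ Nat.card (rhoV (p := p) (P : Subgroup G)).range := by
  have hpl := plane_piV hE hcard hexp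
  have hle : (P : Subgroup G).subgroupOf (Subgroup.normalizer ((P : Subgroup G) : Set G)) ≤ (rhoV (p := p) (P : Subgroup G)).ker := by
    intro g hg
    have hgP : (g : G) ∈ (P : Subgroup G) := Subgroup.mem_subgroupOf.mp hg
    rw [MonoidHom.mem_ker]
    apply LinearEquiv.ext
    intro w
    obtain ⟨u, rfl⟩ := hpl.surj w
    have e : (P : Subgroup G).normalizerMonoidHom g u = ⟨g, hgP⟩ * u * ⟨g, hgP⟩⁻¹ := by
      apply Subtype.ext
      rfl
    rw [rhoV_apply, e, hpl.add, hpl.add, map_inv hpl]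
    show _ = piV u
    abel
  have h1 := Subgroup.index_dvd_of_le hle
  rw [Subgroup.index_ker] at h1
  have h2 : (P : Subgroup G).relIndex (Subgroup.normalizer ((P : Subgroup G) : Set G)) * (Subgroup.normalizer ((P : Subgroup G) : Set G)).index = (P : Subgroup G).index :=
    Subgroup.relIndex_mul_index Subgroup.le_normalizer
  intro hdvd
  apply P.not_dvd_index
  rw [← h2]
  exact Dvd.dvd.mul_right (hdvd.trans h1) _

theorem lines3_aux (P : Sylow p G) [Module (ZMod p) (Additive (Abelianization (P : Subgroup G)))]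
    (hE : Cfsg.IsExtraspecial p (P : Subgroup G))
    (hcard : Nat.card (P : Subgroup G) = p ^ 3) (hexp : ∀ u : (P : Subgroup G), u ^ p = 1) (hp2 : p ≠ 2)
    (w : Fin 3 → Subgroup.normalizer ((P : Subgroup G) : Set G)) (x : Fin 3 → (P : Subgroup G))
    (hnc : ∀ i j, i ≠ j → ¬ Commute (x i) (x j)) {t s : ZMod p} (hst : s * t = 1)
    (hc1 : ∀ i, ∀ ζ ∈ Subgroup.center (P : Subgroup G),
      (w i : G) * (ζ : G) * (w i : G)⁻¹ = ((ζ ^ t.val : (P : Subgroup G)) : G))
    (hc2 : ∀ i, (w i : G) * (x i : G) * (w i : G)⁻¹ = ((x i ^ s.val : (P : Subgroup G)) : G))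
    (htt : ∀ k, 0 < k → k < 6 → t ^ (3 * k) ≠ 1) : False := by
  have hpl := plane_piV hE hcard hexp
  let ρ : Subgroup.normalizer ((P : Subgroup G) : Set G) →* (Additive (Abelianization (P : Subgroup G)) ≃ₗ[ZMod p]
      Additive (Abelianization (P : Subgroup G))) := rhoV (P : Subgroup G)
  haveI : Finite ρ.range := Finite.of_surjective _ ρ.rangeRestrict_surjective
  refine three_lines hpl ρ (P : Subgroup G).normalizerMonoidHom
    (fun g u => rhoV_apply _ g u) (not_dvd_range P hexp hE hcard) hp2 w x hnc hst ?_ ?_ htt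
  · intro i ζ hζ
    apply Subtype.ext
    exact hc1 i ζ hζ
  · intro i
    apply Subtype.ext
    exact hc2 i

theorem lines7_aux (P : Sylow p G) [Module (ZMod p) (Additive (Abelianization (P : Subgroup G)))]
    (hE : Cfsg.IsExtraspecial p (P : Subgroup G))
    (hcard : Nat.card (P : Subgroup G) = p ^ 3) (hexp : ∀ u : (P : Subgroup G), u ^ p = 1) (hp2 : p ≠ 2)
    (w : Fin 7 → Subgroup.normalizer ((P : Subgroup G) : Set G)) (x : Fin 7 → (P : Subgroup G))
    (hnc : ∀ i j, i ≠ j → ¬ Commute (x i) (x j)) {t s : ZMod p} (hst : s * t = 1)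
    (hc1 : ∀ i, ∀ ζ ∈ Subgroup.center (P : Subgroup G),
      (w i : G) * (ζ : G) * (w i : G)⁻¹ = ((ζ ^ t.val : (P : Subgroup G)) : G))
    (hc2 : ∀ i, (w i : G) * (x i : G) * (w i : G)⁻¹ = ((x i ^ s.val : (P : Subgroup G)) : G))
    (htt : ∀ k, 0 < k → t ^ (3 * k) = 1 → 4 ∣ k) : False := by
  have hpl := plane_piV hE hcard hexp
  let ρ : Subgroup.normalizer ((P : Subgroup G) : Set G) →* (Additive (Abelianization (P : Subgroup G)) ≃ₗ[ZMod p]
      Additive (Abelianization (P : Subgroup G))) := rhoV (P : Subgroup G)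
  haveI : Finite ρ.range := Finite.of_surjective _ ρ.rangeRestrict_surjective
  refine seven_lines hpl ρ (P : Subgroup G).normalizerMonoidHom
    (fun g u => rhoV_apply _ g u) (not_dvd_range P hexp hE hcard) hp2 w x hnc hst ?_ ?_ htt
  · intro i ζ hζ
    apply Subtype.ext
    exact hc1 i ζ hζ
  · intro i
    apply Subtype.ext
    exact hc2 i

/-- Three lines in a concrete group. -/
theorem lines3 (P : Sylow p G) (hE : Cfsg.IsExtraspecial p (P : Subgroup G))
    (hcard : Nat.card (P : Subgroup G) = p ^ 3) (hexp : ∀ u : (P : Subgroup G), u ^ p = 1) (hp2 : p ≠ 2)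
    (w : Fin 3 → Subgroup.normalizer ((P : Subgroup G) : Set G)) (x : Fin 3 → (P : Subgroup G))
    (hnc : ∀ i j, i ≠ j → ¬ Commute (x i) (x j)) {t s : ZMod p} (hst : s * t = 1)
    (hc1 : ∀ i, ∀ ζ ∈ Subgroup.center (P : Subgroup G),
      (w i : G) * (ζ : G) * (w i : G)⁻¹ = ((ζ ^ t.val : (P : Subgroup G)) : G))
    (hc2 : ∀ i, (w i : G) * (x i : G) * (w i : G)⁻¹ = ((x i ^ s.val : (P : Subgroup G)) : G))
    (htt : ∀ k, 0 < k → k < 6 → t ^ (3 * k) ≠ 1) : False :=
  @lines3_aux p hp G _ _ P (modV hexp) hE hcard hexp hp2 w x hnc t s hst hc1 hc2 htt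

/-- Seven lines in a concrete group. -/
theorem lines7 (P : Sylow p G) (hE : Cfsg.IsExtraspecial p (P : Subgroup G))
    (hcard : Nat.card (P : Subgroup G) = p ^ 3) (hexp : ∀ u : (P : Subgroup G), u ^ p = 1) (hp2 : p ≠ 2)
    (w : Fin 7 → Subgroup.normalizer ((P : Subgroup G) : Set G)) (x : Fin 7 → (P : Subgroup G))
    (hnc : ∀ i j, i ≠ j → ¬ Commute (x i) (x j)) {t s : ZMod p} (hst : s * t = 1)
    (hc1 : ∀ i, ∀ ζ ∈ Subgroup.center (P : Subgroup G),
      (w i : G) * (ζ : G) * (w i : G)⁻¹ = ((ζ ^ t.val : (P : Subgroup G)) : G))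
    (hc2 : ∀ i, (w i : G) * (x i : G) * (w i : G)⁻¹ = ((x i ^ s.val : (P : Subgroup G)) : G))
    (htt : ∀ k, 0 < k → t ^ (3 * k) = 1 → 4 ∣ k) : False :=
  @lines7_aux p hp G _ _ P (modV hexp) hE hcard hexp hp2 w x hnc t s hst hc1 hc2 htt

end lines

section facts

/-- The hypotheses on the abstract group. -/
structure XP (p : ℕ) (Q : Type*) [Group Q] : Prop where
  hE : Cfsg.IsExtraspecial p Q
  hcard : Nat.card Q = p ^ 3
  hexp : ∀ u : Q, u ^ p = 1

universe uQ

variable {Q : Type uQ} [Group Q] [Finite Q]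

theorem XP.plane (X : XP p Q) : ∃ (V : Type uQ) (_ : AddCommGroup V) (_ : Module (ZMod p) V) (π : Q → V), Plane p π :=
  ⟨Additive (Abelianization Q), inferInstance, modV X.hexp, piV, @plane_piV p hp Q _ _ (modV X.hexp) X.hE X.hcard X.hexp⟩

theorem XP.com_mem (X : XP p Q) (u v : Q) : com u v ∈ Subgroup.center Q := by
  obtain ⟨V, _, _, π, h⟩ := X.plane
  exact ExtraP3.com_mem h u v

theorem com_eq_one_iff' (u v : Q) : com u v = 1 ↔ Commute u v := by
  simp only [com, Commute, SemiconjBy]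
  constructor
  · intro h
    have : u * v * u⁻¹ * v⁻¹ * (v * u) = v * u := by rw [h, one_mul]
    rw [← this]
    group
  · intro h
    rw [h]
    group

theorem XP.orderOf_com (X : XP p Q) {u v : Q} (huv : ¬ Commute u v) : orderOf (com u v) = p := by
  obtain ⟨V, _, _, π, h⟩ := X.plane
  exact ExtraP3.orderOf_com h huv

theorem XP.exists_not_comm {x : Q} (hx : x ∉ Subgroup.center Q) : ∃ y, ¬ Commute y x := by
  by_contra hcon
  push Not at hcon
  exact hx (Subgroup.mem_center_iff.mpr (fun g => (hcon g).eq))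

theorem XP.exists_ne_one (X : XP p Q) : ∃ ζ ∈ Subgroup.center Q, ζ ≠ 1 := by
  by_contra hcon
  push Not at hcon
  have h1 : Subgroup.center Q = ⊥ := (Subgroup.eq_bot_iff_forall _).mpr hcon
  have h2 := X.hE.2
  rw [h1] at h2
  simp at h2
  exact (hp.out).one_lt.ne h2

theorem XP.cen_pow (X : XP p Q) {ζ ξ : Q} (hζ : ζ ∈ Subgroup.center Q) (hne : ζ ≠ 1)
    (hξ : ξ ∈ Subgroup.center Q) : ∃ j : ZMod p, ξ = ζ ^ j.val := by
  have hc := X.hE.2
  let ζ' : Subgroup.center Q := ⟨ζ, hζ⟩
  let ξ' : Subgroup.center Q := ⟨ξ, hξ⟩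
  have hne' : ζ' ≠ 1 := fun h => hne (congrArg Subtype.val h)
  have hz : Subgroup.zpowers ζ' = ⊤ := by
    exact zpowers_eq_top_of_prime_card (p := p) hc hne'
  have hm : ξ' ∈ Subgroup.zpowers ζ' := by rw [hz]; trivial
  have hm' : ξ' ∈ Submonoid.powers ζ' := by
    rw [mem_powers_iff_mem_zpowers]
    exact hm
  obtain ⟨n, hn⟩ := hm'
  refine ⟨(n : ZMod p), ?_⟩
  have h1 : ζ ^ n = ξ := congrArg Subtype.val hn
  rw [← h1, ZMod.val_natCast]
  exact pow_eq_pow_mod _ (X.hexp ζ)

theorem XP.val_eq_zero_of_pow {ζ : Q} {n : ℕ} (hord : orderOf ζ = p) (a : ZMod p) (h : ζ ^ a.val = 1) : a = 0 := by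
  have := orderOf_dvd_of_pow_eq_one h
  rw [hord] at this
  have h0 := (ZMod.natCast_eq_zero_iff a.val p).mpr this
  rwa [ZMod.natCast_zmod_val] at h0

theorem XP.orderOf_of_ne_one (X : XP p Q) {ζ : Q} (hne : ζ ≠ 1) : orderOf ζ = p :=
  orderOf_eq_prime (X.hexp ζ) hne

/-- The form of the elements of the centralizer of a noncentral element. -/
theorem XP.cen_form (X : XP p Q) {x z v : Q} (hx : x ∉ Subgroup.center Q) (hz : z ∈ Subgroup.center Q)
    (hne : z ≠ 1) (hv : Commute x v) : ∃ a b : ZMod p, v = z ^ b.val * x ^ a.val := by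
  obtain ⟨V, _, _, π, h⟩ := X.plane
  obtain ⟨y, hy⟩ := XP.exists_not_comm hx
  have hxy : ¬ Commute x y := fun h' => hy h'.symm
  obtain ⟨α, β, hαβ⟩ := exists_coords h.fin (indep_of_not_comm h hxy) (π v)
  have h1 : π v = π (x ^ α.val * y ^ β.val) := by
    rw [h.add, ExtraP3.map_pow_val h, ExtraP3.map_pow_val h, hαβ]
  obtain ⟨ζ, hζ, hvζ⟩ := exists_eq_mul_center h h1
  have h2 : com x v = 1 := (com_eq_one_iff' x v).mpr hv
  rw [hvζ, com_central_right h _ _ hζ, com_mul_right h, com_pow_right h, com_pow_right h] at h2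
  have hxx : com x x = 1 := by simp [com]
  rw [hxx, one_pow, one_mul] at h2
  have hβ : β = 0 := XP.val_eq_zero_of_pow (n := 0) (X.orderOf_com hxy) β h2
  obtain ⟨b, hb⟩ := X.cen_pow hz hne hζ
  refine ⟨α, b, ?_⟩
  rw [hvζ, hβ, ZMod.val_zero, pow_zero, mul_one, hb]
  exact (Subgroup.mem_center_iff.mp ((Subgroup.center Q).pow_mem hz _) _)

theorem XP.comm_of_comm (X : XP p Q) {x v w : Q} (hx : x ∉ Subgroup.center Q) (hv : Commute x v)
    (hw : Commute x w) : Commute v w := by
  obtain ⟨z, hz, hne⟩ := X.exists_ne_one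
  obtain ⟨a, b, rfl⟩ := X.cen_form hx hz hne hv
  obtain ⟨a', b', rfl⟩ := X.cen_form hx hz hne hw
  have hzc : ∀ (m : ℕ) (g : Q), Commute (z ^ m) g := fun m g =>
    (Subgroup.mem_center_iff.mp ((Subgroup.center Q).pow_mem hz m) g).symm
  have h1 : Commute (x ^ a.val) (x ^ a'.val) := (Commute.refl x).pow_pow _ _
  exact (hzc _ _).mul_left (((hzc _ _).symm).mul_right h1)

/-- Two noncommuting elements generate everything. -/
theorem XP.eq_top (X : XP p Q) (T : Subgroup Q) {a b : Q} (ha : a ∈ T) (hb : b ∈ T) (hab : ¬ Commute a b) : T = ⊤ := by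
  obtain ⟨V, _, _, π, h⟩ := X.plane
  rw [eq_top_iff]
  intro u _
  obtain ⟨α, β, hαβ⟩ := exists_coords h.fin (indep_of_not_comm h hab) (π u)
  have h1 : π u = π (a ^ α.val * b ^ β.val) := by
    rw [h.add, ExtraP3.map_pow_val h, ExtraP3.map_pow_val h, hαβ]
  obtain ⟨ζ, hζ, huζ⟩ := exists_eq_mul_center h h1
  have hκ : com a b ∈ T := by
    simp only [com]
    exact T.mul_mem (T.mul_mem (T.mul_mem ha hb) (T.inv_mem ha)) (T.inv_mem hb)
  have hκne : com a b ≠ 1 := fun h' => hab ((com_eq_one_iff' a b).mp h')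
  obtain ⟨j, hj⟩ := X.cen_pow (X.com_mem a b) hκne hζ
  rw [huζ, hj]
  exact T.mul_mem (T.mul_mem (T.pow_mem ha _) (T.pow_mem hb _)) (T.pow_mem hκ _)

/-- Injectivity of the parametrization of a maximal abelian subgroup. -/
theorem XP.tau_inj (X : XP p Q) {x z : Q} (hx : x ∉ Subgroup.center Q) (hz : z ∈ Subgroup.center Q)
    (hne : z ≠ 1) {a a' b b' : ZMod p} (h1 : z ^ b.val * x ^ a.val = z ^ b'.val * x ^ a'.val) : a = a' ∧ b = b' := by
  obtain ⟨V, _, _, π, h⟩ := X.plane
  have h2 := congrArg π h1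
  rw [h.add, h.add, ExtraP3.map_pow_val h, ExtraP3.map_pow_val h, ExtraP3.map_pow_val h, ExtraP3.map_pow_val h] at h2
  have hπz : π z = 0 := (h.ker z).mpr hz
  rw [hπz, smul_zero, smul_zero, zero_add, zero_add] at h2
  have hπx : π x ≠ 0 := fun h' => hx ((h.ker x).mp h')
  have h3 : (a - a') • π x = 0 := by rw [sub_smul, h2, sub_self]
  have haa : a = a' := sub_eq_zero.mp ((smul_eq_zero.mp h3).resolve_right hπx)
  subst haa
  refine ⟨rfl, ?_⟩
  have h4 : z ^ b.val = z ^ b'.val := mul_right_cancel h1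
  have hord := X.orderOf_of_ne_one hne
  have h5 := pow_injOn_Iio_orderOf (x := z) (Set.mem_Iio.mpr (hord ▸ ZMod.val_lt b)) (Set.mem_Iio.mpr (hord ▸ ZMod.val_lt b')) h4
  exact ZMod.val_injective p h5

end facts

section torus

variable {G : Type*} [Group G] [Finite G]

/-- From a transvection on a line to a torus in the normalizer. -/
theorem torus_of_h (P : Sylow p G) (X : XP p (P : Subgroup G)) {x y : (P : Subgroup G)}
    (hx : x ∉ Subgroup.center (P : Subgroup G)) (hyx : ¬ Commute y x) {h : G} {c : ZMod p} (hc : c ≠ 0)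
    (hhx : h * (x : G) * h⁻¹ = x) (hhz : h * ((com y x : (P : Subgroup G)) : G) * h⁻¹ = ((com y x : (P : Subgroup G)) : G) * (x : G) ^ c.val)
    {t : ZMod p} (ht : t ≠ 0) :
    ∃ w : Subgroup.normalizer ((P : Subgroup G) : Set G),
      (∀ ζ ∈ Subgroup.center (P : Subgroup G), (w : G) * (ζ : G) * (w : G)⁻¹ = ((ζ ^ t.val : (P : Subgroup G)) : G)) ∧
      (w : G) * (x : G) * (w : G)⁻¹ = ((x ^ (t⁻¹).val : (P : Subgroup G)) : G) := by
  set z : (P : Subgroup G) := com y x with hzdef
  have hzc : z ∈ Subgroup.center (P : Subgroup G) := X.com_mem y x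
  have hzne : z ≠ 1 := fun h' => hyx ((com_eq_one_iff' y x).mp h')
  have hzx : Commute (z : G) (x : G) := by
    have := (Subgroup.mem_center_iff.mp hzc x).symm
    exact congrArg Subtype.val this
  have hzp : (z : G) ^ p = 1 := by
    have := congrArg Subtype.val (X.hexp z)
    simpa using this
  have hxp : (x : G) ^ p = 1 := by
    have := congrArg Subtype.val (X.hexp x)
    simpa using this
  have hS : ∀ u ∈ (P : Subgroup G), u * (z : G) * u⁻¹ = z ∧ ∃ b : ZMod p, u * (x : G) * u⁻¹ = (z : G) ^ b.val * x := by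
    intro u hu
    constructor
    · have h1 := Subgroup.mem_center_iff.mp hzc ⟨u, hu⟩
      have h2 : u * (z : G) = z * u := congrArg Subtype.val h1
      rw [h2]
      group
    · obtain ⟨b, hb⟩ := X.cen_pow hzc hzne (X.com_mem ⟨u, hu⟩ x)
      refine ⟨b, ?_⟩
      have h1 : ((com ⟨u, hu⟩ x : (P : Subgroup G)) : G) = ((z ^ b.val : (P : Subgroup G)) : G) := congrArg Subtype.val hb
      have h2 : u * (x : G) * u⁻¹ * (x : G)⁻¹ = (z : G) ^ b.val := by
        simpa [com] using h1
      rw [← h2]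
      group
  have hyx' : (y : G) * (x : G) * (y : G)⁻¹ = (z : G) * x := by
    rw [hzdef]
    simp only [com, Subgroup.coe_mul, Subgroup.coe_inv]
    group
  obtain ⟨w, hw, hwz, hwx⟩ := Cfsg.Agent.Lib.SL2Frattini.exists_torus P hzx hzp hxp hS y.2 hyx' hc hhx hhz ht
  refine ⟨⟨w, hw⟩, fun ζ hζ => ?_, ?_⟩
  · obtain ⟨j, rfl⟩ := X.cen_pow hzc hzne hζ
    simp only [Subgroup.coe_pow]
    rw [← conj_pow, hwz, ← pow_mul, ← pow_mul, mul_comm]
  · simpa using hwx

end torus

section aut

/-- A primitive root. -/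
theorem exists_primitive : ∃ t : ZMod p, t ≠ 0 ∧ ∀ n : ℕ, t ^ n = 1 → (p - 1) ∣ n := by
  obtain ⟨g, hg⟩ := IsCyclic.exists_generator (α := (ZMod p)ˣ)
  have hord : orderOf g = p - 1 := by
    rw [orderOf_eq_card_of_forall_mem_zpowers hg, Nat.card_eq_fintype_card, ZMod.card_units]
  refine ⟨g, g.ne_zero, fun n hn => ?_⟩
  rw [← hord]
  apply orderOf_dvd_of_pow_eq_one
  apply Units.ext
  simpa using hn

/-- A transvection on a group of the form `(ZMod p)²`. -/
theorem exists_aut_order_p {A : Type*} [Group A] (e : ZMod p × ZMod p → A) (he : Function.Bijective e)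
    (hmul : ∀ v w, e (v + w) = e v * e w) :
    ∃ φ : MulAut A, orderOf φ = p ∧ ∀ b a, φ (e (b, a)) = e (b, a + b) := by
  let E := Equiv.ofBijective e he
  have hE : ∀ v, E v = e v := fun v => rfl
  let T : ZMod p × ZMod p ≃ ZMod p × ZMod p :=
    { toFun := fun v => (v.1, v.2 + v.1)
      invFun := fun v => (v.1, v.2 - v.1)
      left_inv := by intro v; simp
      right_inv := by intro v; simp }
  let φ : MulAut A :=
    { toEquiv := E.symm.trans (T.trans E)
      map_mul' := by
        intro a b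
        obtain ⟨v, rfl⟩ := E.surjective a
        obtain ⟨w, rfl⟩ := E.surjective b
        have h0 : E v * E w = E (v + w) := by rw [hE, hE, hE, hmul]
        show E (T (E.symm (E v * E w))) = E (T (E.symm (E v))) * E (T (E.symm (E w)))
        rw [h0, Equiv.symm_apply_apply, Equiv.symm_apply_apply, Equiv.symm_apply_apply, hE, hE, hE, ← hmul]
        congr 1
        show ((v + w).1, (v + w).2 + (v + w).1) = (v.1, v.2 + v.1) + (w.1, w.2 + w.1)
        ext <;> simp <;> ring }
  have hφ : ∀ b a, φ (e (b, a)) = e (b, a + b) := by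
    intro b a
    show E (T (E.symm (e (b, a)))) = e (b, a + b)
    rw [← hE (b, a), Equiv.symm_apply_apply]
    rfl
  have hpow : ∀ (n : ℕ) (b a : ZMod p), (φ ^ n) (e (b, a)) = e (b, a + n * b) := by
    intro n
    induction n with
    | zero => intro b a; simp
    | succ n ih =>
      intro b a
      rw [pow_succ]
      show (φ ^ n) (φ (e (b, a))) = _
      rw [hφ, ih]
      congr 2
      push_cast
      ring
  refine ⟨φ, orderOf_eq_prime ?_ ?_, hφ⟩
  · ext u
    obtain ⟨⟨b, a⟩, rfl⟩ := he.surjective u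
    rw [hpow]
    simp
  · intro h1
    have h2 := hφ 1 0
    rw [h1] at h2
    have h3 := he.injective h2
    simp at h3

end aut

end Cfsg.Agent.Lib.ExtraP3Local
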