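import Mathlib
import Cfsg.Prelude.Def_Transfer
import Cfsg.Agent.Lib.Frat

/-!
The squaring and commutator functions of an extraspecial 2-group as `ZMod 2`-valued functions.
-/

set_option autoImplicit false

open Cfsg
open scoped commutatorElement

namespace Cfsg.Agent.Lib.ExtraSqForm

variable {P : Type*} [Group P]

open Classical in
/-- `0` on the identity and `1` elsewhere. -/
noncomputable def val (p : P) : ZMod 2 := if p = 1 then 0 else 1

theorem val_eq_zero_iff {p : P} : val p = 0 ↔ p = 1 := by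
  unfold val
  split_ifs with h
  · simp [h]
  · simp [h]

theorem val_one : val (1 : P) = 0 := val_eq_zero_iff.2 rfl

/-- The commutator, written out. -/
def kap (x y : P) : P := x * y * x⁻¹ * y⁻¹

theorem kap_eq_one_iff {x y : P} : kap x y = 1 ↔ x * y = y * x := by
  unfold kap
  constructor
  · intro h
    have : x * y * x⁻¹ * y⁻¹ * (y * x) = y * x := by rw [h, one_mul]
    rw [← this]
    group
  · intro h
    rw [h]
    group

/-- Elementwise description of an extraspecial 2-group with central involution `c`. -/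
structure ES (c : P) : Prop where
  ne : c ≠ 1
  sq_c : c * c = 1
  cen : ∀ x, x * c = c * x
  comm : ∀ x y, kap x y = 1 ∨ kap x y = c
  sq : ∀ x : P, x ^ 2 = 1 ∨ x ^ 2 = c
  central : ∀ x, (∀ y, x * y = y * x) → x = 1 ∨ x = c

theorem exists_ES [Finite P] (h : IsExtraspecial 2 P) : ∃ c : P, ES c ∧ ∀ x, x ∈ Subgroup.center P ↔ x = 1 ∨ x = c := by
  have hp : Fact (Nat.Prime 2) := ⟨Nat.prime_two⟩
  obtain ⟨⟨h2, hfr, hcomm⟩, hcard⟩ := h
  obtain ⟨c, hc1, hcu⟩ := (Nat.card_eq_two_iff' (1 : Subgroup.center P)).mp hcard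
  have hcen : ∀ x : P, x ∈ Subgroup.center P → x = 1 ∨ x = (c : P) := by
    intro x hx
    by_cases hx1 : (⟨x, hx⟩ : Subgroup.center P) = 1
    · left; simpa using congrArg Subtype.val hx1
    · right; simpa using congrArg Subtype.val (hcu _ hx1)
  have hc1' : (c : P) ≠ 1 := fun h1 => hc1 (Subtype.ext h1)
  have hccen : ∀ x : P, x * c = c * x := fun x =>
    ((Subgroup.mem_center_iff.mp c.2) x)
  have hsq : (c : P) * c = 1 := by
    have h3 : c ^ 2 = 1 := by
      have := pow_card_eq_one' (x := c)
      rwa [hcard] at this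
    have h4 := congrArg Subtype.val h3
    simpa [pow_two] using h4
  refine ⟨(c : P), ⟨hc1', hsq, hccen, ?_, ?_, ?_⟩, ?_⟩
  · intro x y
    have h3 : ⁅x, y⁆ ∈ commutator P :=
      Subgroup.commutator_mem_commutator (Subgroup.mem_top _) (Subgroup.mem_top _)
    rw [hcomm] at h3
    exact hcen _ h3
  · intro x
    have h3 : x ^ 2 ∈ frattini P := Cfsg.Agent.Lib.Frat.pow_mem_frattini h2 _
    rw [hfr] at h3
    exact hcen _ h3
  · intro x hx
    exact hcen x (Subgroup.mem_center_iff.mpr fun y => (hx y).symm)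
  · intro x
    refine ⟨hcen x, ?_⟩
    rintro (rfl | rfl)
    · exact one_mem _
    · exact c.2

namespace ES

variable {c : P} (h : ES c)
include h

theorem c_mul_c_mul (x : P) : c * (c * x) = x := by
  rw [← mul_assoc, h.sq_c, one_mul]

theorem mul_c_sq (x : P) : (x * c) ^ 2 = x ^ 2 := by
  rw [pow_two, pow_two]
  calc x * c * (x * c) = x * (c * x) * c := by group
    _ = x * (x * c) * c := by rw [h.cen x]
    _ = x * x * (c * c) := by group
    _ = x * x := by rw [h.sq_c, mul_one]

theorem kap_swap (x y : P) : kap y x = 1 ↔ kap x y = 1 := by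
  rw [kap_eq_one_iff, kap_eq_one_iff]
  exact eq_comm

/-- `val` is additive on `{1, c}`. -/
theorem val_c : val c = 1 := by
  unfold val
  rw [if_neg h.ne]

theorem val_mul_of {p p' : P} (hp : p = 1 ∨ p = c) (hp' : p' = 1 ∨ p' = c) :
    val (p * p') = val p + val p' := by
  rcases hp with rfl | rfl <;> rcases hp' with rfl | rfl
  · simp [val_one]
  · simp [val_one]
  · simp [val_one]
  · rw [h.sq_c, val_one, h.val_c]; decide

theorem mul_self_sq (x y : P) : (x * y) ^ 2 = x ^ 2 * y ^ 2 * kap y x := by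
  rcases h.comm y x with hk | hk
  · rw [hk, mul_one]
    have h1 := kap_eq_one_iff.1 hk
    rw [pow_two, pow_two, pow_two]
    calc x * y * (x * y) = x * (y * x) * y := by group
      _ = x * (x * y) * y := by rw [h1]
      _ = x * x * (y * y) := by group
  · rw [hk]
    have h1 : y * x = c * (x * y) := by
      rw [← hk]
      unfold kap
      group
    rw [pow_two, pow_two, pow_two]
    calc x * y * (x * y) = x * (y * x) * y := by group
      _ = x * (c * (x * y)) * y := by rw [h1]
      _ = (x * c) * (x * y) * y := by group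
      _ = (c * x) * (x * y) * y := by rw [h.cen x]
      _ = c * (x * x) * (y * y) := by group
      _ = (x * x) * c * (y * y) := by rw [h.cen (x * x)]
      _ = (x * x) * (c * (y * y)) := by group
      _ = (x * x) * ((y * y) * c) := by rw [h.cen (y * y)]
      _ = x * x * (y * y) * c := by group

theorem kap_mul_right (x y y' : P) : kap x (y * y') = kap x y * kap x y' := by
  have e : kap x (y * y') = kap x y * (y * kap x y' * y⁻¹) := by
    unfold kap
    group
  rw [e]
  rcases h.comm x y' with hk | hk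
  · rw [hk]; group
  · have : y * c * y⁻¹ = c := by
      rw [h.cen y]
      group
    rw [hk, this]

end ES

/-- The squaring function. -/
noncomputable def sqv (x : P) : ZMod 2 := val (x ^ 2)

/-- The commutator function. -/
noncomputable def cmv (x y : P) : ZMod 2 := val (kap x y)

theorem sqv_eq_zero_iff {x : P} : sqv x = 0 ↔ x ^ 2 = 1 := val_eq_zero_iff

theorem cmv_eq_zero_iff {x y : P} : cmv x y = 0 ↔ x * y = y * x := by
  unfold cmv
  rw [val_eq_zero_iff, kap_eq_one_iff]

namespace ES

variable {c : P} (h : ES c)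
include h

theorem cmv_comm (x y : P) : cmv x y = cmv y x := by
  unfold cmv
  by_cases h1 : kap x y = 1
  · rw [val_eq_zero_iff.2 h1, val_eq_zero_iff.2 ((h.kap_swap x y).2 h1)]
  · have h2 : kap y x ≠ 1 := fun e => h1 ((h.kap_swap x y).1 e)
    unfold val
    rw [if_neg h1, if_neg h2]

theorem cmv_self (x : P) : cmv x x = 0 := by
  rw [cmv_eq_zero_iff]

theorem sqv_mul (x y : P) : sqv (x * y) = sqv x + sqv y + cmv x y := by
  unfold sqv
  rw [h.mul_self_sq, h.val_mul_of _ (h.comm y x), h.val_mul_of (h.sq x) (h.sq y)]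
  · rw [h.cmv_comm]; rfl
  · rcases h.sq x with h1 | h1 <;> rcases h.sq y with h2 | h2 <;> rw [h1, h2]
    · simp
    · simp
    · simp
    · simp [h.sq_c]

theorem cmv_mul (x y y' : P) : cmv x (y * y') = cmv x y + cmv x y' := by
  unfold cmv
  rw [h.kap_mul_right, h.val_mul_of (h.comm x y) (h.comm x y')]

theorem sqv_mul_c (x : P) : sqv (x * c) = sqv x := by
  unfold sqv
  rw [h.mul_c_sq]

theorem cmv_c (x : P) : cmv x c = 0 := by
  rw [cmv_eq_zero_iff]
  exact h.cen x

theorem cmv_mul_c (x y : P) : cmv x (y * c) = cmv x y := by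
  rw [h.cmv_mul, h.cmv_c, add_zero]

theorem cmv_c_mul (x y : P) : cmv (x * c) y = cmv x y := by
  rw [h.cmv_comm, h.cmv_mul_c, h.cmv_comm]

end ES

theorem sqv_map (α : P ≃* P) (x : P) : sqv (α x) = sqv x := by
  have h0 : α (x ^ 2) = 1 ↔ x ^ 2 = 1 := map_eq_one_iff α α.injective
  unfold sqv
  rw [← map_pow]
  by_cases h1 : x ^ 2 = 1
  · rw [val_eq_zero_iff.2 h1, val_eq_zero_iff.2 (h0.2 h1)]
  · unfold val
    rw [if_neg h1, if_neg (fun e => h1 (h0.1 e))]

end Cfsg.Agent.Lib.ExtraSqForm
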