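import Mathlib

/-!
# A concrete field with sixteen elements

Elements are `Fin 16`, addition is xor, and multiplication is read from a packed table
(polynomial basis, `x⁴ + x + 1`).  All axioms are checked by the kernel.
-/

set_option autoImplicit false

namespace Cfsg.Agent.Lib.F16

/-- The field with sixteen elements, on `Fin 16`. -/
def K16 : Type := Fin 16

namespace K16

instance : DecidableEq K16 := inferInstanceAs (DecidableEq (Fin 16))
instance : Fintype K16 := inferInstanceAs (Fintype (Fin 16))

/-- The multiplication table, packed in base 16. -/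
def mulTab : ℕ :=
  116196760129267793630862849262464326346044543732748708940920453221664288556434379745879494961270582141731748813355742142288220638766218855867759359510984593843506004200114943278699875244065120512813025380665946106619127097398772031257643617143689515450995722003729973585221105779229319991106539050771048038400

/-- The inverse table, packed in base 16. -/
def invTab : ℕ := 9460475325918865680

/-- Addition. -/
def add (a b : K16) : K16 := ⟨Nat.mod (Nat.xor a.1 b.1) 16, Nat.mod_lt _ (by decide)⟩

/-- Multiplication. -/
def mul (a b : K16) : K16 :=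
  ⟨Nat.mod (Nat.shiftRight mulTab (Nat.mul 4 (Nat.add (Nat.mul 16 a.1) b.1))) 16,
    Nat.mod_lt _ (by decide)⟩

/-- Inverse, with `0⁻¹ = 0`. -/
def inv (a : K16) : K16 :=
  ⟨Nat.mod (Nat.shiftRight invTab (Nat.mul 4 a.1)) 16, Nat.mod_lt _ (by decide)⟩

instance : Add K16 := ⟨add⟩
instance : Mul K16 := ⟨mul⟩
instance : Neg K16 := ⟨id⟩
instance : Inv K16 := ⟨inv⟩
instance : Zero K16 := ⟨(⟨0, by decide⟩ : Fin 16)⟩
instance : One K16 := ⟨(⟨1, by decide⟩ : Fin 16)⟩

theorem add_assoc' : ∀ a b c : K16, add (add a b) c = add a (add b c) := by decide +kernel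
theorem zero_add' : ∀ a : K16, add (0 : K16) a = a := by decide +kernel
theorem neg_add_cancel' : ∀ a : K16, add a a = (0 : K16) := by decide +kernel
theorem mul_assoc' : ∀ a b c : K16, mul (mul a b) c = mul a (mul b c) := by decide +kernel
theorem mul_comm' : ∀ a b : K16, mul a b = mul b a := by decide +kernel
theorem one_mul' : ∀ a : K16, mul (1 : K16) a = a := by decide +kernel
theorem mul_inv_cancel' : ∀ a : K16, a ≠ (0 : K16) → mul a (inv a) = (1 : K16) := by decide +kernel
theorem inv_zero' : inv (0 : K16) = (0 : K16) := by decide +kernel
theorem left_distrib' : ∀ a b c : K16, mul a (add b c) = add (mul a b) (mul a c) := by decide +kernel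

/-- The field structure. -/
instance instField : Field K16 :=
  Field.ofMinimalAxioms K16 add_assoc' zero_add' neg_add_cancel' mul_assoc' mul_comm' one_mul'
    mul_inv_cancel' inv_zero' left_distrib' ⟨(0 : K16), (1 : K16), by decide⟩

theorem card_K16 : Fintype.card K16 = 16 := Fintype.card_fin 16

theorem add_def (a b : K16) : a + b = add a b := rfl
theorem mul_def (a b : K16) : a * b = mul a b := rfl
theorem inv_def (a : K16) : a⁻¹ = inv a := rfl

/-- The Frobenius `x ↦ x⁴`, by table. -/
def frob4 (a : K16) : K16 := mul (mul a a) (mul a a)

theorem pow_four (a : K16) : a ^ 4 = frob4 a := by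
  show a ^ 4 = (a * a) * (a * a)
  ring

end K16

end Cfsg.Agent.Lib.F16
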