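import Mathlib
import Cfsg.Agent.Lib.UnitarySU

/-!
# Coded computation over the field with twenty-five elements

Elements of the field with `25` elements are coded by natural numbers `r + 5 s` (standing for `r + s i`, `i² = 2`).
The kernel computes with codes; `val` transfers the results to any field with an element `i`, `i * i = 2`, of
characteristic five.
-/

set_option autoImplicit false
set_option linter.style.longLine false

open Cfsg
open scoped Matrix

namespace Cfsg.Agent.Lib.F25Code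

/-- Addition of codes. -/
def fadd (x y : ℕ) : ℕ := (x % 5 + y % 5) % 5 + 5 * ((x / 5 + y / 5) % 5)

/-- Multiplication of codes. -/
def fmul (x y : ℕ) : ℕ :=
  (x % 5 * (y % 5) + 2 * (x / 5 * (y / 5))) % 5 + 5 * ((x % 5 * (y / 5) + x / 5 * (y % 5)) % 5)

/-- Fifth power of a code. -/
def ffrob (x : ℕ) : ℕ := fmul x (fmul (fmul x x) (fmul x x))

/-- A vector of codes. -/
structure V3 where
  (x y z : ℕ)
  deriving DecidableEq

/-- A matrix of codes. -/
structure M3 where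
  (a b c d e f g h i : ℕ)
  deriving DecidableEq

namespace M3

/-- The product. -/
def mul (m n : M3) : M3 :=
  ⟨fadd (fadd (fmul m.a n.a) (fmul m.b n.d)) (fmul m.c n.g),
   fadd (fadd (fmul m.a n.b) (fmul m.b n.e)) (fmul m.c n.h),
   fadd (fadd (fmul m.a n.c) (fmul m.b n.f)) (fmul m.c n.i),
   fadd (fadd (fmul m.d n.a) (fmul m.e n.d)) (fmul m.f n.g),
   fadd (fadd (fmul m.d n.b) (fmul m.e n.e)) (fmul m.f n.h),
   fadd (fadd (fmul m.d n.c) (fmul m.e n.f)) (fmul m.f n.i),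
   fadd (fadd (fmul m.g n.a) (fmul m.h n.d)) (fmul m.i n.g),
   fadd (fadd (fmul m.g n.b) (fmul m.h n.e)) (fmul m.i n.h),
   fadd (fadd (fmul m.g n.c) (fmul m.h n.f)) (fmul m.i n.i)⟩

/-- The identity. -/
def one : M3 := ⟨1, 0, 0, 0, 1, 0, 0, 0, 1⟩

/-- The transpose. -/
def tr (m : M3) : M3 := ⟨m.a, m.d, m.g, m.b, m.e, m.h, m.c, m.f, m.i⟩

/-- Entries to the fifth. -/
def cj (m : M3) : M3 :=
  ⟨ffrob m.a, ffrob m.b, ffrob m.c, ffrob m.d, ffrob m.e, ffrob m.f, ffrob m.g, ffrob m.h, ffrob m.i⟩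

/-- The determinant. -/
def det (m : M3) : ℕ :=
  fadd (fadd (fadd (fadd (fadd (fmul m.a (fmul m.e m.i)) (fmul 4 (fmul m.a (fmul m.f m.h))))
    (fmul 4 (fmul m.b (fmul m.d m.i)))) (fmul m.b (fmul m.f m.g))) (fmul m.c (fmul m.d m.h)))
    (fmul 4 (fmul m.c (fmul m.e m.g)))

/-- Matrix times vector. -/
def mulV (m : M3) (u : V3) : V3 :=
  ⟨fadd (fadd (fmul m.a u.x) (fmul m.b u.y)) (fmul m.c u.z),
   fadd (fadd (fmul m.d u.x) (fmul m.e u.y)) (fmul m.f u.z),
   fadd (fadd (fmul m.g u.x) (fmul m.h u.y)) (fmul m.i u.z)⟩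

/-- Membership in the coded unitary group. -/
def IsU (m : M3) : Prop := mul (tr m) (cj m) = one ∧ det m = 1

instance (m : M3) : Decidable (IsU m) := by unfold IsU; infer_instance

/-- A power. -/
def pow (m : M3) : ℕ → M3
  | 0 => one
  | k + 1 => mul (pow m k) m

end M3

namespace V3

/-- The form. -/
def herm (u v : V3) : ℕ :=
  fadd (fadd (fmul u.x (ffrob v.x)) (fmul u.y (ffrob v.y))) (fmul u.z (ffrob v.z))

/-- Scalar multiple. -/
def scale (c : ℕ) (u : V3) : V3 := ⟨fmul c u.x, fmul c u.y, fmul c u.z⟩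

end V3

section Transfer

variable {F : Type*} [Field F] (i : F)

/-- The value of a code. -/
def val (n : ℕ) : F := ((n % 5 : ℕ) : F) + ((n / 5 : ℕ) : F) * i

theorem cast_mod (h5 : (5 : F) = 0) (n : ℕ) : ((n % 5 : ℕ) : F) = (n : F) := by
  have h : (n : F) = ((n % 5 : ℕ) : F) + 5 * ((n / 5 : ℕ) : F) := by
    have e := (Nat.mod_add_div n 5).symm
    calc (n : F) = ((n % 5 + 5 * (n / 5) : ℕ) : F) := congrArg _ e
      _ = _ := by push_cast; ring
  rw [h5, zero_mul, add_zero] at h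
  exact h.symm

theorem val_add (h5 : (5 : F) = 0) (x y : ℕ) : val i (fadd x y) = val i x + val i y := by
  unfold val fadd
  have e1 : ((x % 5 + y % 5) % 5 + 5 * ((x / 5 + y / 5) % 5)) % 5 = (x % 5 + y % 5) % 5 := by omega
  have e2 : ((x % 5 + y % 5) % 5 + 5 * ((x / 5 + y / 5) % 5)) / 5 = (x / 5 + y / 5) % 5 := by omega
  rw [e1, e2, cast_mod h5, cast_mod h5]
  push_cast
  ring

theorem val_mul (hi : i * i = 2) (h5 : (5 : F) = 0) (x y : ℕ) :
    val i (fmul x y) = val i x * val i y := by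
  unfold val fmul
  have e1 : ((x % 5 * (y % 5) + 2 * (x / 5 * (y / 5))) % 5 +
      5 * ((x % 5 * (y / 5) + x / 5 * (y % 5)) % 5)) % 5 = (x % 5 * (y % 5) + 2 * (x / 5 * (y / 5))) % 5 := by
    omega
  have e2 : ((x % 5 * (y % 5) + 2 * (x / 5 * (y / 5))) % 5 +
      5 * ((x % 5 * (y / 5) + x / 5 * (y % 5)) % 5)) / 5 = (x % 5 * (y / 5) + x / 5 * (y % 5)) % 5 := by
    omega
  rw [e1, e2, cast_mod h5, cast_mod h5]
  push_cast
  linear_combination (-(((x / 5 : ℕ) : F) * ((y / 5 : ℕ) : F))) * hi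

theorem val_frob (hi : i * i = 2) (h5 : (5 : F) = 0) (x : ℕ) : val i (ffrob x) = val i x ^ 5 := by
  unfold ffrob
  rw [val_mul i hi h5, val_mul i hi h5, val_mul i hi h5]
  ring

theorem val_zero : val i 0 = 0 := by
  simp [val]

theorem val_one : val i 1 = 1 := by
  simp [val]

theorem val_four (h5 : (5 : F) = 0) : val i 4 = -1 := by
  have e1 : (4 : ℕ) % 5 = 4 := rfl
  have e2 : (4 : ℕ) / 5 = 0 := rfl
  unfold val
  rw [e1, e2]
  push_cast
  linear_combination h5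

/-- The matrix of a code. -/
def toM (m : M3) : Matrix (Fin 3) (Fin 3) F :=
  !![val i m.a, val i m.b, val i m.c; val i m.d, val i m.e, val i m.f; val i m.g, val i m.h, val i m.i]

/-- The vector of a code. -/
def toV (u : V3) : Fin 3 → F := ![val i u.x, val i u.y, val i u.z]

theorem toM_mul (hi : i * i = 2) (h5 : (5 : F) = 0) (m n : M3) :
    toM i (M3.mul m n) = toM i m * toM i n := by
  ext a b
  fin_cases a <;> fin_cases b <;>
    simp [toM, M3.mul, val_add i h5, val_mul i hi h5, Matrix.mul_apply, Fin.sum_univ_three]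

theorem toM_one : toM i M3.one = 1 := by
  ext a b
  fin_cases a <;> fin_cases b <;> simp [toM, M3.one, val_zero, val_one]

theorem toM_det (hi : i * i = 2) (h5 : (5 : F) = 0) (m : M3) :
    (toM i m).det = val i (M3.det m) := by
  rw [Matrix.det_fin_three]
  simp only [toM, M3.det, val_add i h5, val_mul i hi h5, val_four i h5]
  simp
  ring

theorem toM_mulVec (hi : i * i = 2) (h5 : (5 : F) = 0) (m : M3) (u : V3) :
    toM i m *ᵥ toV i u = toV i (M3.mulV m u) := by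
  ext a
  fin_cases a <;>
    simp [toM, toV, M3.mulV, val_add i h5, val_mul i hi h5, Matrix.mulVec, dotProduct, Fin.sum_univ_three]

theorem herm_toV (hi : i * i = 2) (h5 : (5 : F) = 0) (u v : V3) :
    hermForm 3 F 5 (toV i u) (toV i v) = val i (V3.herm u v) := by
  simp [hermForm, toV, V3.herm, val_add i h5, val_mul i hi h5, val_frob i hi h5, Fin.sum_univ_three]

theorem smul_toV (hi : i * i = 2) (h5 : (5 : F) = 0) (c : ℕ) (u : V3) :
    val i c • toV i u = toV i (V3.scale c u) := by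
  ext a
  fin_cases a <;> simp [toV, V3.scale, val_mul i hi h5]

theorem pow5 (h5 : (5 : F) = 0) (x y z : F) : (x + y + z) ^ 5 = x ^ 5 + y ^ 5 + z ^ 5 := by
  have h : (x + y + z) ^ 5 - (x ^ 5 + y ^ 5 + z ^ 5) = 5 * ((x ^ 4 * y + x ^ 4 * z + 2 * x ^ 3 * y ^ 2 + 4 * x ^ 3 * y * z + 2 * x ^ 3 * z ^ 2 + 2 * x ^ 2 * y ^ 3 + 6 * x ^ 2 * y ^ 2 * z + 6 * x ^ 2 * y * z ^ 2 + 2 * x ^ 2 * z ^ 3 + x * y ^ 4 + 4 * x * y ^ 3 * z + 6 * x * y ^ 2 * z ^ 2 + 4 * x * y * z ^ 3 + x * z ^ 4 + y ^ 4 * z + 2 * y ^ 3 * z ^ 2 + 2 * y ^ 2 * z ^ 3 + y * z ^ 4)) := by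
    ring
  rw [h5, zero_mul] at h
  exact sub_eq_zero.1 h

theorem pres (hi : i * i = 2) (h5 : (5 : F) = 0) (m : M3)
    (h : M3.mul (M3.tr m) (M3.cj m) = M3.one) (u v : Fin 3 → F) :
    hermForm 3 F 5 (toM i m *ᵥ u) (toM i m *ᵥ v) = hermForm 3 F 5 u v := by
  have h' := congrArg (toM i) h
  rw [toM_mul i hi h5, toM_one] at h'
  have hE : ∀ a b, (toM i (M3.tr m) * toM i (M3.cj m)) a b = (1 : Matrix (Fin 3) (Fin 3) F) a b := by
    intro a b
    rw [h']
  have h00 := hE 0 0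
  have h01 := hE 0 1
  have h02 := hE 0 2
  have h10 := hE 1 0
  have h11 := hE 1 1
  have h12 := hE 1 2
  have h20 := hE 2 0
  have h21 := hE 2 1
  have h22 := hE 2 2
  simp only [toM, M3.tr, M3.cj, val_frob i hi h5, Matrix.mul_apply, Fin.sum_univ_three] at h00 h01 h02 h10 h11 h12 h20 h21 h22
  simp at h00 h01 h02 h10 h11 h12 h20 h21 h22
  unfold hermForm
  simp only [Fin.sum_univ_three, Matrix.mulVec, dotProduct, toM]
  simp
  rw [pow5 h5, pow5 h5, pow5 h5]
  simp only [mul_pow]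
  linear_combination (u 0 * v 0 ^ 5) * h00 + (u 0 * v 1 ^ 5) * h01 + (u 0 * v 2 ^ 5) * h02 +
    (u 1 * v 0 ^ 5) * h10 + (u 1 * v 1 ^ 5) * h11 + (u 1 * v 2 ^ 5) * h12 +
    (u 2 * v 0 ^ 5) * h20 + (u 2 * v 1 ^ 5) * h21 + (u 2 * v 2 ^ 5) * h22

/-- The element of `SU` of a code. -/
noncomputable def toSU (hi : i * i = 2) (h5 : (5 : F) = 0) (m : M3) (hm : M3.IsU m) : SU 3 F 5 :=
  Cfsg.Agent.Lib.UnitarySU.SUofMatrix (toM i m)
    (by rw [toM_det i hi h5, hm.2, val_one])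
    (fun u v => pres i hi h5 m hm.1 u v)

theorem toSU_coe (hi : i * i = 2) (h5 : (5 : F) = 0) (m : M3) (hm : M3.IsU m) :
    ((toSU i hi h5 m hm).1.1 : Matrix (Fin 3) (Fin 3) F) = toM i m := rfl

theorem toSU_mul (hi : i * i = 2) (h5 : (5 : F) = 0) {m n r : M3} (hm : M3.IsU m) (hn : M3.IsU n)
    (hr : M3.IsU r) (h : M3.mul m n = r) :
    toSU i hi h5 m hm * toSU i hi h5 n hn = toSU i hi h5 r hr := by
  apply Subtype.ext
  apply Subtype.ext
  show ((toSU i hi h5 m hm).1.1 : Matrix (Fin 3) (Fin 3) F) * (toSU i hi h5 n hn).1.1 = (toSU i hi h5 r hr).1.1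
  rw [toSU_coe, toSU_coe, toSU_coe, ← h, toM_mul i hi h5]

theorem toSU_one (hi : i * i = 2) (h5 : (5 : F) = 0) (hm : M3.IsU M3.one) :
    toSU i hi h5 M3.one hm = 1 := by
  apply Subtype.ext
  apply Subtype.ext
  show ((toSU i hi h5 M3.one hm).1.1 : Matrix (Fin 3) (Fin 3) F) = 1
  rw [toSU_coe, toM_one]

end Transfer

section Field

variable {F : Type*} [Field F] [Fintype F] (hF : Fintype.card F = 25)

include hF

theorem five_eq_zero : (5 : F) = 0 := by
  have h : ((Fintype.card F : ℕ) : F) = 0 := Nat.cast_card_eq_zero F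
  rw [hF] at h
  have h2 : (5 : F) * 5 = 0 := by
    have : ((25 : ℕ) : F) = 5 * 5 := by norm_num
    rw [← this, h]
  exact mul_self_eq_zero.mp h2

theorem exists_i : ∃ i : F, i * i = 2 := by
  have h5 := five_eq_zero hF
  have h1 : (1 : F) ≠ 0 := one_ne_zero
  have h2 : (2 : F) ≠ 0 := by
    intro h
    apply h1
    linear_combination (-2 : F) * h + h5
  have hc : ringChar F ≠ 2 := by
    intro h
    have := ringChar.Nat.cast_ringChar (R := F)
    rw [h] at this
    apply h2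
    exact_mod_cast this
  have h3 : IsSquare (2 : F) := by
    rw [FiniteField.isSquare_iff hc h2, hF]
    have e : (25 / 2 : ℕ) = 12 := rfl
    rw [e]
    linear_combination (819 : F) * h5
  obtain ⟨i, hi⟩ := h3
  exact ⟨i, hi.symm⟩

end Field

end Cfsg.Agent.Lib.F25Code
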