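import Cfsg.Agent.Lib.Chev.RelF4
import Cfsg.Agent.Lib.Chev.RootF4
import Cfsg.Agent.Lib.Chev.RankOne
import Cfsg.Agent.Lib.ClassicalSmall
import Cfsg.Agent.Lib.Chev.TwClass
import Cfsg.Agent.Lib.Chev.Act

/-!
# Rank one subgroups of type F4 in characteristic two, and the commuting pair `C₃`, `A₁`
-/

set_option autoImplicit false
set_option maxRecDepth 100000
set_option linter.unusedSectionVars false
set_option linter.unusedVariables false
set_option linter.unusedSimpArgs false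

namespace Cfsg.Agent.Lib.F4Comm

open Cfsg Cfsg.Lie Cfsg.Agent.Lib.Chev Matrix Cfsg.Agent.Lib.Chev.SL2

variable {F : Type*} [Field F]

section gen

variable {T : Tabs} {X : Extra} {R : RootTab} {D : ChevalleyDatum} (hF : Full T X R D)

include hF

theorem xG_ne_neg {γ : ℕ} (hγ : γ < D.nroots) {t s : F} (ht : t ≠ 0) :
    hF.c.xG γ t ≠ hF.c.xG (D.neg γ) s := by
  intro h
  have hn := hF.neg_lt hγ
  have hne := hF.neg_eq hγ
  have h2 := hF.two
  have h0 : hF.c.xG γ t ∈ D.borelSubgroup F ⊓ D.negUnipotent F := by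
    by_cases hp : R.N ≤ γ
    · refine ⟨hF.c.posUnipotent_le_borel (hF.xG_mem_U hγ hp t), ?_⟩
      rw [h]
      exact hF.xG_mem_V (by omega) s
    · refine ⟨?_, hF.xG_mem_V (not_le.1 hp) t⟩
      rw [h]
      exact hF.c.posUnipotent_le_borel (hF.xG_mem_U hn (by omega) s)
  rw [hF.B_inf_V, Subgroup.mem_bot] at h0
  have h3 := congrArg (fun g : GL D.Idx F => (g : Matrix D.Idx D.Idx F)) h0
  simp only [Checks.coe_xG, Units.val_one] at h3
  exact ht ((hF.c.x_eq_one_iff hγ t).1 h3)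

theorem sl2_hom_inj (h2 : (2 : F) = 0) {γ : ℕ} (hγ : γ < D.nroots)
    (φ : SpecialLinearGroup (Fin 2) F →* GL D.Idx F)
    (hx : ∀ t : F, φ (x0 t) = hF.c.xG γ t) (hy : ∀ t : F, φ (y0 t) = hF.c.xG (D.neg γ) t) :
    Function.Injective φ := by
  rw [injective_iff_map_eq_one]
  intro g hg
  have hdet : (g : Matrix (Fin 2) (Fin 2) F) 0 0 * (g : Matrix (Fin 2) (Fin 2) F) 1 1 -
      (g : Matrix (Fin 2) (Fin 2) F) 0 1 * (g : Matrix (Fin 2) (Fin 2) F) 1 0 = 1 := by
    have := g.2
    rwa [Matrix.det_fin_two] at this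
  have hgm : (g : Matrix (Fin 2) (Fin 2) F) = !![(g : Matrix (Fin 2) (Fin 2) F) 0 0, (g : Matrix (Fin 2) (Fin 2) F) 0 1;
      (g : Matrix (Fin 2) (Fin 2) F) 1 0, (g : Matrix (Fin 2) (Fin 2) F) 1 1] := (Matrix.eta_fin_two _)
  generalize (g : Matrix (Fin 2) (Fin 2) F) 0 0 = a at hdet hgm
  generalize (g : Matrix (Fin 2) (Fin 2) F) 0 1 = b at hdet hgm
  generalize (g : Matrix (Fin 2) (Fin 2) F) 1 0 = c at hdet hgm
  generalize (g : Matrix (Fin 2) (Fin 2) F) 1 1 = d at hdet hgm
  by_cases hc : c = 0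
  · subst hc
    have had : a * d = 1 := by linear_combination hdet
    have hconj : g * x0 1 = x0 (a ^ 2) * g := by
      apply Subtype.ext
      show (g : Matrix (Fin 2) (Fin 2) F) * !![1, 1; 0, 1] = !![1, a ^ 2; 0, 1] * (g : Matrix (Fin 2) (Fin 2) F)
      rw [hgm]
      simp only [Matrix.mul_fin_two]
      ext i j
      fin_cases i <;> fin_cases j <;> simp
      · linear_combination (-a) * had
    have h4 := congrArg φ hconj
    simp only [map_mul, hg, one_mul, mul_one, hx] at h4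
    have h5 := hF.xG_param_inj hγ h4
    have ha : a = 1 := by
      have : (a - 1) ^ 2 = 0 := by
        linear_combination (-1 : F) * h5 + (1 - a) * h2
      have := pow_eq_zero_iff (two_ne_zero) |>.1 this
      exact sub_eq_zero.1 this
    subst ha
    have hd : d = 1 := by linear_combination had
    subst hd
    have hgx : g = x0 b := by
      apply Subtype.ext
      rw [hgm]
      rfl
    rw [hgx, hx] at hg
    have h3 := congrArg (fun g : GL D.Idx F => (g : Matrix D.Idx D.Idx F)) hg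
    simp only [Checks.coe_xG, Units.val_one] at h3
    have hb := (hF.c.x_eq_one_iff hγ b).1 h3
    rw [hgx, hb]
    apply Subtype.ext
    show (!![1, 0; 0, 1] : Matrix (Fin 2) (Fin 2) F) = 1
    ext i j
    fin_cases i <;> fin_cases j <;> simp
  · exfalso
    have hkey : x0 (-a / c) * g * x0 (-d / c) * x0 1 = y0 (-c ^ 2) * (x0 (-a / c) * g * x0 (-d / c)) := by
      apply Subtype.ext
      show (!![1, -a / c; 0, 1] * (g : Matrix (Fin 2) (Fin 2) F) * !![1, -d / c; 0, 1] * !![1, 1; 0, 1] : Matrix (Fin 2) (Fin 2) F) =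
        !![1, 0; -c ^ 2, 1] * (!![1, -a / c; 0, 1] * (g : Matrix (Fin 2) (Fin 2) F) * !![1, -d / c; 0, 1])
      rw [hgm]
      simp only [Matrix.mul_fin_two]
      have hb : b = (a * d - 1) / c := by
        field_simp
        linear_combination -hdet
      subst hb
      ext i j
      fin_cases i <;> fin_cases j <;> simp <;> field_simp <;> first | ring1 | simp
    have h4 := congrArg φ hkey
    simp only [map_mul, hg, mul_one, hx, hy] at h4
    have h5 : hF.c.xG γ (-a / c) * hF.c.xG γ (-d / c) * hF.c.xG γ 1 =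
        hF.c.xG γ 1 * (hF.c.xG γ (-a / c) * hF.c.xG γ (-d / c)) := by
      rw [hF.c.xG_add, hF.c.xG_add, hF.c.xG_add, add_comm]
    rw [h5] at h4
    exact xG_ne_neg hF hγ one_ne_zero (mul_right_cancel h4)

theorem sl2_elt_gen (h2 : (2 : F) = 0) [Fintype F] {γ : ℕ} (hγ : γ < D.nroots) {p : ℕ} [Fact p.Prime]
    (hp : p ∣ Fintype.card F * (Fintype.card F ^ 2 - 1)) :
    ∃ z : GL D.Idx F, orderOf z = p ∧ z ∈ D.rootSubgroup F γ ⊔ D.rootSubgroup F (D.neg γ) := by
  classical
  obtain ⟨φ, hr, hφ⟩ := hF.exists_sl2_hom (F := F) hγ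
  have up : ∀ t : F, φ (x0 t) = hF.c.xG γ t := fun t => Units.ext (by
    rw [(hφ (x0 t) t).1 rfl]; rfl)
  have lo : ∀ t : F, φ (y0 t) = hF.c.xG (D.neg γ) t := fun t => Units.ext (by
    rw [(hφ (y0 t) t).2 rfl]; rfl)
  have inj := sl2_hom_inj hF h2 hγ φ up lo
  have hcard : p ∣ Nat.card (SpecialLinearGroup (Fin 2) F) := by
    rw [Cfsg.Agent.Lib.ClassicalSmall.card_SL2]
    have h3 : Fintype.card F ^ 2 - 1 = (Fintype.card F + 1) * (Fintype.card F - 1) := by
      have := Nat.sq_sub_sq (Fintype.card F) 1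
      simpa using this
    rw [h3] at hp
    convert hp using 1
    ring
  obtain ⟨g, hg⟩ := exists_prime_orderOf_dvd_card' p hcard
  exact ⟨φ g, by rw [orderOf_injective φ inj g, hg], by rw [← hr]; exact ⟨g, rfl⟩⟩

end gen

theorem hFX : Full TabF4.T TabF4.X RootF4T.R chevF4 := ⟨RelF4.checks, RootF4.checks⟩

/-- The highest root of type `F₄`: it is orthogonal to the `C₃` spanned by the first three fundamental roots. -/
def beta : ℕ := 47

theorem neg_beta : chevF4.neg beta = 0 := by decide +kernel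

theorem chk : ∀ r : Fin 48, (chevF4.coroot.getD r #[]).getD 3 0 = 0 →
    (47 ≠ (r : ℕ) ∧ 47 ≠ chevF4.neg r ∧ chevF4.commTerms r 47 = [] ∧
      0 ≠ (r : ℕ) ∧ 0 ≠ chevF4.neg r ∧ chevF4.commTerms r 0 = []) := by
  decide +kernel

/-- `F` has characteristic two: every prime divisor of `q (q² - 1)` is the order of an element of
`⟨X_γ, X_{-γ}⟩`. -/
theorem sl2_elt [Fintype F] (h2 : (2 : F) = 0) {γ : ℕ} (hγ : γ < 48) {p : ℕ} [Fact p.Prime]
    (hp : p ∣ Fintype.card F * (Fintype.card F ^ 2 - 1)) :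
    ∃ z : GL chevF4.Idx F, orderOf z = p ∧ z ∈ chevF4.rootSubgroup F γ ⊔ chevF4.rootSubgroup F (chevF4.neg γ) :=
  sl2_elt_gen hFX h2 hγ hp

theorem gen_comm {r : ℕ} (hr : chevF4.InRootSub {0, 1, 2} r) (t u : F) :
    Commute (hFX.c.xG (F := F) r t) (hFX.c.xG 47 u) ∧ Commute (hFX.c.xG (F := F) r t) (hFX.c.xG 0 u) := by
  have hr48 : r < 48 := hr.1
  have h3 : (chevF4.coroot.getD r #[]).getD 3 0 = 0 := hr.2 3 (by decide) (by simp)
  obtain ⟨a1, a2, a3, a4, a5, a6⟩ := chk ⟨r, hr48⟩ h3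
  exact ⟨Full.xG_commute_of_nil (hF := hFX) hr48 (by decide) a1 a2 a3 t u,
    Full.xG_commute_of_nil (hF := hFX) hr48 (by decide) a4 a5 a6 t u⟩

/-- The subgroup of type `C₃` commutes with `⟨X_β, X_{-β}⟩`. -/
theorem beta_comm {y z : GL chevF4.Idx F}
    (hy : y ∈ Subgroup.closure {g : GL chevF4.Idx F | ∃ (r : ℕ) (t : F), chevF4.InRootSub {0, 1, 2} r ∧
      (g : Matrix chevF4.Idx chevF4.Idx F) = chevF4.x F r t})
    (hz : z ∈ chevF4.rootSubgroup F beta ⊔ chevF4.rootSubgroup F (chevF4.neg beta)) : y * z = z * y := by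
  rw [neg_beta] at hz
  have hgen : ∀ (s : ℕ), (s = 47 ∨ s = 0) → ∀ u : F, y ∈ Subgroup.centralizer {hFX.c.xG (F := F) s u} := by
    intro s hs u
    revert y
    intro y hy
    have : Subgroup.closure {g : GL chevF4.Idx F | ∃ (r : ℕ) (t : F), chevF4.InRootSub {0, 1, 2} r ∧
        (g : Matrix chevF4.Idx chevF4.Idx F) = chevF4.x F r t} ≤ Subgroup.centralizer {hFX.c.xG (F := F) s u} := by
      rw [Subgroup.closure_le]
      rintro g ⟨r, t, hr, hg⟩
      have hg' : g = hFX.c.xG r t := Units.ext hg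
      rw [hg']
      rw [SetLike.mem_coe, Subgroup.mem_centralizer_singleton_iff]
      have h5 := gen_comm hr t u
      rcases hs with rfl | rfl
      · exact h5.1
      · exact h5.2
    exact this hy
  have hle : chevF4.rootSubgroup F beta ⊔ chevF4.rootSubgroup F 0 ≤ Subgroup.centralizer {y} := by
    refine sup_le ?_ ?_
    · rw [ChevalleyDatum.rootSubgroup, Subgroup.closure_le]
      rintro g ⟨t, hg⟩
      have hg' : g = hFX.c.xG 47 t := Units.ext hg
      rw [hg']
      have h6 := hgen 47 (Or.inl rfl) t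
      rw [Subgroup.mem_centralizer_singleton_iff] at h6
      rw [SetLike.mem_coe, Subgroup.mem_centralizer_singleton_iff]
      exact h6.symm
    · rw [ChevalleyDatum.rootSubgroup, Subgroup.closure_le]
      rintro g ⟨t, hg⟩
      have hg' : g = hFX.c.xG 0 t := Units.ext hg
      rw [hg']
      have h6 := hgen 0 (Or.inr rfl) t
      rw [Subgroup.mem_centralizer_singleton_iff] at h6
      rw [SetLike.mem_coe, Subgroup.mem_centralizer_singleton_iff]
      exact h6.symm
  have h7 := hle hz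
  rw [Subgroup.mem_centralizer_singleton_iff] at h7
  exact h7.symm

end Cfsg.Agent.Lib.F4Comm
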