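import Cfsg.Agent.Lib.F4Inv50C

/-!
# The unipotent group of `²F₄(q)`: membership, normal form, Weyl elements
-/

set_option autoImplicit false
set_option linter.unusedSectionVars false
set_option linter.unusedVariables false
set_option linter.unusedSimpArgs false
set_option maxRecDepth 100000

namespace Cfsg.Agent.Lib.F4Inv50

open Cfsg Cfsg.Lie Cfsg.Agent.Lib.Chev Cfsg.Agent.Lib.Chev.TwF4

section Mem

variable {K : Type*} [Field K] [CharP K 2] [Fintype K] {e : ℕ} (d : Dat K e)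

theorem E_mem_G1 (t1 u1 v2 t3 u3 v4 t5 u5 v6 t7 u7 v8 : K) : E d.f t1 u1 v2 t3 u3 v4 t5 u5 v6 t7 u7 v8 ∈ twistedF4 K e :=
  (d.twG).U_fix_le (E_mem_U d.f t1 u1 v2 t3 u3 v4 t5 u5 v6 t7 u7 v8) (E_fix d t1 u1 v2 t3 u3 v4 t5 u5 v6 t7 u7 v8)

/-- The normal form of the elements of the Sylow 2-subgroup. -/
theorem exists_E {u : GL chevF4.Idx K} (hu : u ∈ chevF4.posUnipotent K) (hG : u ∈ twistedF4 K e) :
    ∃ t1 u1 v2 t3 u3 v4 t5 u5 v6 t7 u7 v8, u = E d.f t1 u1 v2 t3 u3 v4 t5 u5 v6 t7 u7 v8 := by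
  classical
  let D := K × K × K × K × K × K × K × K × K × K × K × K
  have hcard : Nat.card ↥(chevF4.posUnipotent K ⊓ twistedF4 K e) = (Fintype.card K) ^ 12 := d.card_U1
  let Φ : D → ↥(chevF4.posUnipotent K ⊓ twistedF4 K e) := fun p =>
    ⟨E d.f p.1 p.2.1 p.2.2.1 p.2.2.2.1 p.2.2.2.2.1 p.2.2.2.2.2.1 p.2.2.2.2.2.2.1 p.2.2.2.2.2.2.2.1 p.2.2.2.2.2.2.2.2.1 p.2.2.2.2.2.2.2.2.2.1 p.2.2.2.2.2.2.2.2.2.2.1 p.2.2.2.2.2.2.2.2.2.2.2,
      E_mem_U _ _ _ _ _ _ _ _ _ _ _ _ _, E_mem_G1 d _ _ _ _ _ _ _ _ _ _ _ _⟩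
  have hinj : Function.Injective Φ := by
    rintro ⟨a1, a2, a3, a4, a5, a6, a7, a8, a9, a10, a11, a12⟩ ⟨b1, b2, b3, b4, b5, b6, b7, b8, b9, b10, b11, b12⟩ h
    have h1 := congrArg Subtype.val h
    obtain ⟨e1, e2, e3, e4, e5, e6, e7, e8, e9, e10, e11, e12⟩ := E_inj d.f h1
    subst e1 e2 e3 e4 e5 e6 e7 e8 e9 e10 e11 e12
    rfl
  have hcD : Nat.card D = (Fintype.card K) ^ 12 := by
    simp only [D, Nat.card_eq_fintype_card, Fintype.card_prod]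
    ring
  have hbij : Function.Bijective Φ := (Nat.bijective_iff_injective_and_card Φ).2 ⟨hinj, by rw [hcD, hcard]⟩
  obtain ⟨⟨a1, a2, a3, a4, a5, a6, a7, a8, a9, a10, a11, a12⟩, hp⟩ := hbij.2 ⟨u, hu, hG⟩
  exact ⟨a1, a2, a3, a4, a5, a6, a7, a8, a9, a10, a11, a12, (congrArg Subtype.val hp).symm⟩

end Mem

section Weyl

variable {K : Type*} [Field K] [CharP K 2]

theorem eta_one {i s : ℕ} (hi : i < chevF4.rank) (hs : s < chevF4.nroots) : ((TabF4.X.eta i s : ℤ) : K) = 1 := by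
  have h := hF.eta_sq (F := K) hi hs
  have h2 : (2 : K) = 0 := CharTwo.two_eq_zero
  have h3 : (((TabF4.X.eta i s : ℤ) : K) + 1) * (((TabF4.X.eta i s : ℤ) : K) + 1) = 0 := by
    linear_combination h + (((TabF4.X.eta i s : ℤ) : K) + 1) * h2
  have h4 : ((TabF4.X.eta i s : ℤ) : K) + 1 = 0 := by
    rcases mul_eq_zero.1 h3 with h5 | h5 <;> exact h5
  have h5 : ((TabF4.X.eta i s : ℤ) : K) = -1 := by linear_combination h4
  rw [h5, CharTwo.neg_eq]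

theorem nS_conj {i s : ℕ} (hi : i < chevF4.rank) (hs : s < chevF4.nroots) (t : K) :
    hF.nS i * x s t * (hF.nS i)⁻¹ = x (TabF4.X.wf i s) t := by
  have h := hF.nS_conj_xG (F := K) hi hs t
  rw [eta_one hi hs, one_mul] at h
  exact h

/-- The Weyl element of the pair of fundamental roots. -/
noncomputable def nP : GL chevF4.Idx K := hF.nS 0 * (hF.nS 3 * 1)

/-- The Weyl element of the class of fundamental roots. -/
noncomputable def nC : GL chevF4.Idx K := hF.nS 1 * (hF.nS 2 * (hF.nS 1 * (hF.nS 2 * 1)))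

theorem nP_conj {s : ℕ} (hs : s < chevF4.nroots) (t : K) :
    nP * x s t * nP⁻¹ = x (TabF4.X.wf 0 (TabF4.X.wf 3 s)) t := by
  have hs3 := hF.wf_lt (i := 3) (by decide) hs
  unfold nP
  have e : hF.nS 0 * (hF.nS 3 * 1) * hF.c.xG s t * (hF.nS 0 * (hF.nS 3 * 1))⁻¹ =
      hF.nS 0 * (hF.nS 3 * hF.c.xG s t * (hF.nS 3)⁻¹) * (hF.nS 0)⁻¹ := by
    group
  exact e.trans (by rw [nS_conj (by decide) hs, nS_conj (by decide) hs3])

theorem nC_conj {s : ℕ} (hs : s < chevF4.nroots) (t : K) :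
    nC * x s t * nC⁻¹ = x (TabF4.X.wf 1 (TabF4.X.wf 2 (TabF4.X.wf 1 (TabF4.X.wf 2 s)))) t := by
  have hs1 := hF.wf_lt (i := 2) (by decide) hs
  have hs2 := hF.wf_lt (i := 1) (by decide) hs1
  have hs3 := hF.wf_lt (i := 2) (by decide) hs2
  unfold nC
  have e : hF.nS 1 * (hF.nS 2 * (hF.nS 1 * (hF.nS 2 * 1))) * hF.c.xG s t * (hF.nS 1 * (hF.nS 2 * (hF.nS 1 * (hF.nS 2 * 1))))⁻¹ =
      hF.nS 1 * (hF.nS 2 * (hF.nS 1 * (hF.nS 2 * hF.c.xG s t * (hF.nS 2)⁻¹) * (hF.nS 1)⁻¹) * (hF.nS 2)⁻¹) * (hF.nS 1)⁻¹ := by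
    group
  exact e.trans (by rw [nS_conj (by decide) hs, nS_conj (by decide) hs1, nS_conj (by decide) hs2, nS_conj (by decide) hs3])

theorem conj_x0 (n : GL chevF4.Idx K) (r : ℕ) : n * x r (0 : K) * n⁻¹ = 1 := by
  show n * hF.c.xG r (0 : K) * n⁻¹ = 1
  rw [hF.c.xG_zero, mul_one, mul_inv_cancel]

theorem x_zero (r : ℕ) : x r (0 : K) = 1 := hF.c.xG_zero r

/-- Conjugation distributes over the general element. -/
theorem conj_W {n : GL chevF4.Idx K} (a24 a25 a26 a27 a28 a29 a30 a31 a32 a33 a34 a35 a36 a37 a38 a39 a40 a41 a42 a43 a44 a45 a46 a47 : K) :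
    n * W a24 a25 a26 a27 a28 a29 a30 a31 a32 a33 a34 a35 a36 a37 a38 a39 a40 a41 a42 a43 a44 a45 a46 a47 * n⁻¹ =
      (n * x 24 a24 * n⁻¹) * ((n * x 25 a25 * n⁻¹) * ((n * x 26 a26 * n⁻¹) * ((n * x 27 a27 * n⁻¹) * ((n * x 28 a28 * n⁻¹) * ((n * x 29 a29 * n⁻¹) * ((n * x 30 a30 * n⁻¹) * ((n * x 31 a31 * n⁻¹) * ((n * x 32 a32 * n⁻¹) * ((n * x 33 a33 * n⁻¹) * ((n * x 34 a34 * n⁻¹) * ((n * x 35 a35 * n⁻¹) * ((n * x 36 a36 * n⁻¹) * ((n * x 37 a37 * n⁻¹) * ((n * x 38 a38 * n⁻¹) * ((n * x 39 a39 * n⁻¹) * ((n * x 40 a40 * n⁻¹) * ((n * x 41 a41 * n⁻¹) * ((n * x 42 a42 * n⁻¹) * ((n * x 43 a43 * n⁻¹) * ((n * x 44 a44 * n⁻¹) * ((n * x 45 a45 * n⁻¹) * ((n * x 46 a46 * n⁻¹) * ((n * x 47 a47 * n⁻¹) * 1))))))))))))))))))))))) := by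
  unfold W
  group

theorem wP_tab : TabF4.X.wf 0 (TabF4.X.wf 3 25) = 26 ∧ TabF4.X.wf 0 (TabF4.X.wf 3 26) = 25 ∧ TabF4.X.wf 0 (TabF4.X.wf 3 27) = 34 ∧ TabF4.X.wf 0 (TabF4.X.wf 3 28) = 36 ∧ TabF4.X.wf 0 (TabF4.X.wf 3 29) = 35 ∧ TabF4.X.wf 0 (TabF4.X.wf 3 30) = 42 ∧ TabF4.X.wf 0 (TabF4.X.wf 3 31) = 41 ∧ TabF4.X.wf 0 (TabF4.X.wf 3 32) = 43 ∧ TabF4.X.wf 0 (TabF4.X.wf 3 34) = 27 ∧ TabF4.X.wf 0 (TabF4.X.wf 3 35) = 29 ∧ TabF4.X.wf 0 (TabF4.X.wf 3 36) = 28 ∧ TabF4.X.wf 0 (TabF4.X.wf 3 37) = 38 ∧ TabF4.X.wf 0 (TabF4.X.wf 3 38) = 37 ∧ TabF4.X.wf 0 (TabF4.X.wf 3 39) = 39 ∧ TabF4.X.wf 0 (TabF4.X.wf 3 40) = 44 ∧ TabF4.X.wf 0 (TabF4.X.wf 3 41) = 31 ∧ TabF4.X.wf 0 (TabF4.X.wf 3 42) = 30 ∧ TabF4.X.wf 0 (TabF4.X.wf 3 43) = 32 ∧ TabF4.X.wf 0 (TabF4.X.wf 3 44) = 40 ∧ TabF4.X.wf 0 (TabF4.X.wf 3 45) = 45 ∧ TabF4.X.wf 0 (TabF4.X.wf 3 46) = 47 ∧ TabF4.X.wf 0 (TabF4.X.wf 3 47) = 46 := by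
  decide +kernel

theorem wC_tab : TabF4.X.wf 1 (TabF4.X.wf 2 (TabF4.X.wf 1 (TabF4.X.wf 2 24))) = 32 ∧ TabF4.X.wf 1 (TabF4.X.wf 2 (TabF4.X.wf 1 (TabF4.X.wf 2 26))) = 31 ∧ TabF4.X.wf 1 (TabF4.X.wf 2 (TabF4.X.wf 1 (TabF4.X.wf 2 29))) = 29 ∧ TabF4.X.wf 1 (TabF4.X.wf 2 (TabF4.X.wf 1 (TabF4.X.wf 2 31))) = 26 ∧ TabF4.X.wf 1 (TabF4.X.wf 2 (TabF4.X.wf 1 (TabF4.X.wf 2 32))) = 24 ∧ TabF4.X.wf 1 (TabF4.X.wf 2 (TabF4.X.wf 1 (TabF4.X.wf 2 33))) = 37 ∧ TabF4.X.wf 1 (TabF4.X.wf 2 (TabF4.X.wf 1 (TabF4.X.wf 2 34))) = 35 ∧ TabF4.X.wf 1 (TabF4.X.wf 2 (TabF4.X.wf 1 (TabF4.X.wf 2 35))) = 34 ∧ TabF4.X.wf 1 (TabF4.X.wf 2 (TabF4.X.wf 1 (TabF4.X.wf 2 36))) = 40 ∧ TabF4.X.wf 1 (TabF4.X.wf 2 (TabF4.X.wf 1 (TabF4.X.wf 2 37))) = 33 ∧ TabF4.X.wf 1 (TabF4.X.wf 2 (TabF4.X.wf 1 (TabF4.X.wf 2 38))) = 39 ∧ TabF4.X.wf 1 (TabF4.X.wf 2 (TabF4.X.wf 1 (TabF4.X.wf 2 39))) = 38 ∧ TabF4.X.wf 1 (TabF4.X.wf 2 (TabF4.X.wf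 1 (TabF4.X.wf 2 40))) = 36 ∧ TabF4.X.wf 1 (TabF4.X.wf 2 (TabF4.X.wf 1 (TabF4.X.wf 2 41))) = 41 ∧ TabF4.X.wf 1 (TabF4.X.wf 2 (TabF4.X.wf 1 (TabF4.X.wf 2 42))) = 46 ∧ TabF4.X.wf 1 (TabF4.X.wf 2 (TabF4.X.wf 1 (TabF4.X.wf 2 43))) = 45 ∧ TabF4.X.wf 1 (TabF4.X.wf 2 (TabF4.X.wf 1 (TabF4.X.wf 2 44))) = 44 ∧ TabF4.X.wf 1 (TabF4.X.wf 2 (TabF4.X.wf 1 (TabF4.X.wf 2 45))) = 43 ∧ TabF4.X.wf 1 (TabF4.X.wf 2 (TabF4.X.wf 1 (TabF4.X.wf 2 46))) = 42 ∧ TabF4.X.wf 1 (TabF4.X.wf 2 (TabF4.X.wf 1 (TabF4.X.wf 2 47))) = 47 := by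
  decide +kernel

set_option maxHeartbeats 4000000 in
theorem nP_W (a25 a26 a27 a28 a29 a30 a31 a32 a34 a35 a36 a37 a38 a39 a40 a41 a42 a43 a44 a45 a46 a47 : K) : nP * W 0 a25 a26 a27 a28 a29 a30 a31 a32 0 a34 a35 a36 a37 a38 a39 a40 a41 a42 a43 a44 a45 a46 a47 * nP⁻¹ = W 0 (a26) (a25) (a34) (a36) (a35) (a42) (a41) (a43) 0 (a27) (a29) (a28) (a38 + a27*a36 + a29*a34) (a37 + a27*a35 + a28*a34) (a39 + a28*a36 + a29*a35) (a44 + a27*a43 + a28*a42 + a29*a41 + a27*a35*a36 + a28*a34*a36 + a29*a34*a35) (a31) (a30) (a32) (a40 + a30*a36 + a31*a35 + a32*a34 + a27*a28*a36 + a27*a29*a35 + a28*a29*a34) (a45 + a30*a42 + a31*a41 + a27^2*a43 + a32*a34^2) (a47 + a31*a43 + a32*a42 + a29^2*a41 + a30*a36^2) (a46 + a30*a43 + a32*a41 + a28^2*a42 + a31*a35^2) := by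
  have h2 : (2 : K) = 0 := CharTwo.two_eq_zero
  have h4 : (4 : K) = 0 := by linear_combination 2 * h2
  have h6 : (6 : K) = 0 := by linear_combination 3 * h2
  have h8 : (8 : K) = 0 := by linear_combination 4 * h2
  have h10 : (10 : K) = 0 := by linear_combination 5 * h2
  have h12 : (12 : K) = 0 := by linear_combination 6 * h2
  have h14 : (14 : K) = 0 := by linear_combination 7 * h2
  have h16 : (16 : K) = 0 := by linear_combination 8 * h2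
  obtain ⟨t25, t26, t27, t28, t29, t30, t31, t32, t34, t35, t36, t37, t38, t39, t40, t41, t42, t43, t44, t45, t46, t47⟩ := wP_tab
  rw [conj_W]
  simp only [conj_x0, one_mul, nP_conj (s := 25) (by decide), nP_conj (s := 26) (by decide), nP_conj (s := 27) (by decide), nP_conj (s := 28) (by decide), nP_conj (s := 29) (by decide), nP_conj (s := 30) (by decide), nP_conj (s := 31) (by decide), nP_conj (s := 32) (by decide), nP_conj (s := 34) (by decide), nP_conj (s := 35) (by decide), nP_conj (s := 36) (by decide), nP_conj (s := 37) (by decide), nP_conj (s := 38) (by decide), nP_conj (s := 39) (by decide), nP_conj (s := 40) (by decide), nP_conj (s := 41) (by decide), nP_conj (s := 42) (by decide), nP_conj (s := 43) (by decide), nP_conj (s := 44) (by decide), nP_conj (s := 45) (by decide), nP_conj (s := 46) (by decide), nP_conj (s := 47) (by decide), t25, t26, t27, t28, t29, t30,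 t31, t32, t34, t35, t36, t37, t38, t39, t40, t41, t42, t43, t44, t45, t46, t47]
  show x 26 a25 * (x 25 a26 * (x 34 a27 * (x 36 a28 * (x 35 a29 * (x 42 a30 * (x 41 a31 * (x 43 a32 * (x 27 a34 * (x 29 a35 * (x 28 a36 * (x 38 a37 * (x 37 a38 * (x 39 a39 * (x 44 a40 * (x 31 a41 * (x 30 a42 * (x 32 a43 * (x 40 a44 * (x 45 a45 * (x 47 a46 * (x 46 a47 * 1))))))))))))))))))))) = _
  unfold W
  simp only [x_zero, one_mul, s_25_24, s_26_24, s_27_24, s_28_24, s_29_24, s_30_24, s_31_24, s_32_24, s_33_24, s_34_24, s_35_24, s_36_24, s_37_24, s_38_24, s_39_24, s_40_24, s_41_24, s_42_24, s_43_24, s_44_24, s_45_24, s_46_24, s_47_24, s_26_25, s_27_25, s_28_25, s_29_25, s_30_25, s_31_25, s_32_25, s_33_25, s_34_25, s_35_25, s_36_25, s_37_25, s_38_25, s_39_25, s_40_25, s_41_25, s_42_25, s_43_25, s_44_25, s_45_25, s_46_25, s_47_25, s_27_26, s_28_26, s_29_26, s_30_26, s_31_26, s_32_26, s_33_26,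 s_34_26, s_35_26, s_36_26, s_37_26, s_38_26, s_39_26, s_40_26, s_41_26, s_42_26, s_43_26, s_44_26, s_45_26, s_46_26, s_47_26, s_28_27, s_29_27, s_30_27, s_31_27, s_32_27, s_33_27, s_34_27, s_35_27, s_36_27, s_37_27, s_38_27, s_39_27, s_40_27, s_41_27, s_42_27, s_43_27, s_44_27, s_45_27, s_46_27, s_47_27, s_29_28, s_30_28, s_31_28, s_32_28, s_33_28, s_34_28, s_35_28, s_36_28, s_37_28, s_38_28, s_39_28, s_40_28, s_41_28, s_42_28, s_43_28, s_44_28, s_45_28, s_46_28, s_47_28, s_30_29, s_31_29, s_32_29, s_33_29, s_34_29, s_35_29, s_36_29, s_37_29, s_38_29, s_39_29, s_40_29, s_41_29, s_42_29, s_43_29, s_44_29, s_45_29, s_46_29, s_47_29, s_31_30, s_32_30, s_33_30, s_34_30, s_35_30, s_36_30, s_37_30, s_38_30, s_39_30, s_40_30, s_41_30, s_42_30, s_43_30, s_44_30, s_45_30, s_46_30, s_47_30, s_32_31, s_33_31, s_34_31, s_35_31, s_36_31, s_37_31, s_38_31, s_39_31, s_40_31, s_41_31, s_42_31,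 s_43_31, s_44_31, s_45_31, s_46_31, s_47_31, s_33_32, s_34_32, s_35_32, s_36_32, s_37_32, s_38_32, s_39_32, s_40_32, s_41_32, s_42_32, s_43_32, s_44_32, s_45_32, s_46_32, s_47_32, s_34_33, s_35_33, s_36_33, s_37_33, s_38_33, s_39_33, s_40_33, s_41_33, s_42_33, s_43_33, s_44_33, s_45_33, s_46_33, s_47_33, s_35_34, s_36_34, s_37_34, s_38_34, s_39_34, s_40_34, s_41_34, s_42_34, s_43_34, s_44_34, s_45_34, s_46_34, s_47_34, s_36_35, s_37_35, s_38_35, s_39_35, s_40_35, s_41_35, s_42_35, s_43_35, s_44_35, s_45_35, s_46_35, s_47_35, s_37_36, s_38_36, s_39_36, s_40_36, s_41_36, s_42_36, s_43_36, s_44_36, s_45_36, s_46_36, s_47_36, s_38_37, s_39_37, s_40_37, s_41_37, s_42_37, s_43_37, s_44_37, s_45_37, s_46_37, s_47_37, s_39_38, s_40_38, s_41_38, s_42_38, s_43_38, s_44_38, s_45_38, s_46_38, s_47_38, s_40_39, s_41_39, s_42_39, s_43_39, s_44_39, s_45_39, s_46_39, s_47_39, s_41_40, s_42_40,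 s_43_40, s_44_40, s_45_40, s_46_40, s_47_40, s_42_41, s_43_41, s_44_41, s_45_41, s_46_41, s_47_41, s_43_42, s_44_42, s_45_42, s_46_42, s_47_42, s_44_43, s_45_43, s_46_43, s_47_43, s_45_44, s_46_44, s_47_44, s_46_45, s_47_45, s_47_46, mg_24, mg_25, mg_26, mg_27, mg_28, mg_29, mg_30, mg_31, mg_32, mg_33, mg_34, mg_35, mg_36, mg_37, mg_38, mg_39, mg_40, mg_41, mg_42, mg_43, mg_44, mg_45, mg_46, mg_47]
  exact congrArg₂ (· * ·) (congrArg (x 25) (by first | ring1 | (rw [← sub_eq_zero]; ring_nf; simp [h2, h4, h6, h8, h10, h12, h14, h16]))) (congrArg₂ (· * ·) (congrArg (x 26) (by first | ring1 | (rw [← sub_eq_zero]; ring_nf; simp [h2, h4, h6, h8, h10, h12, h14, h16]))) (congrArg₂ (· * ·) (congrArg (x 27) (by first | ring1 | (rw [← sub_eq_zero]; ring_nf; simp [h2, h4, h6, h8, h10, h12, h14, h16]))) (congrArg₂ (· * ·) (congrArg (x 28) (by first | ring1 | (rw [← sub_eq_zero]; ring_nf;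 simp [h2, h4, h6, h8, h10, h12, h14, h16]))) (congrArg₂ (· * ·) (congrArg (x 29) (by first | ring1 | (rw [← sub_eq_zero]; ring_nf; simp [h2, h4, h6, h8, h10, h12, h14, h16]))) (congrArg₂ (· * ·) (congrArg (x 30) (by first | ring1 | (rw [← sub_eq_zero]; ring_nf; simp [h2, h4, h6, h8, h10, h12, h14, h16]))) (congrArg₂ (· * ·) (congrArg (x 31) (by first | ring1 | (rw [← sub_eq_zero]; ring_nf; simp [h2, h4, h6, h8, h10, h12, h14, h16]))) (congrArg₂ (· * ·) (congrArg (x 32) (by first | ring1 | (rw [← sub_eq_zero]; ring_nf; simp [h2, h4, h6, h8, h10, h12, h14, h16]))) (congrArg₂ (· * ·) (congrArg (x 34) (by first | ring1 | (rw [← sub_eq_zero]; ring_nf; simp [h2, h4, h6, h8, h10, h12, h14, h16]))) (congrArg₂ (· * ·) (congrArg (x 35) (by first | ring1 | (rw [← sub_eq_zero]; ring_nf; simp [h2, h4, h6, h8, h10, h12, h14, h16]))) (congrArg₂ (· * ·) (congrArg (x 36) (by first | ring1 |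 (rw [← sub_eq_zero]; ring_nf; simp [h2, h4, h6, h8, h10, h12, h14, h16]))) (congrArg₂ (· * ·) (congrArg (x 37) (by first | ring1 | (rw [← sub_eq_zero]; ring_nf; simp [h2, h4, h6, h8, h10, h12, h14, h16]))) (congrArg₂ (· * ·) (congrArg (x 38) (by first | ring1 | (rw [← sub_eq_zero]; ring_nf; simp [h2, h4, h6, h8, h10, h12, h14, h16]))) (congrArg₂ (· * ·) (congrArg (x 39) (by first | ring1 | (rw [← sub_eq_zero]; ring_nf; simp [h2, h4, h6, h8, h10, h12, h14, h16]))) (congrArg₂ (· * ·) (congrArg (x 40) (by first | ring1 | (rw [← sub_eq_zero]; ring_nf; simp [h2, h4, h6, h8, h10, h12, h14, h16]))) (congrArg₂ (· * ·) (congrArg (x 41) (by first | ring1 | (rw [← sub_eq_zero]; ring_nf; simp [h2, h4, h6, h8, h10, h12, h14, h16]))) (congrArg₂ (· * ·) (congrArg (x 42) (by first | ring1 | (rw [← sub_eq_zero]; ring_nf; simp [h2, h4, h6, h8, h10, h12, h14, h16]))) (congrArg₂ (· * ·) (congrArg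 (x 43) (by first | ring1 | (rw [← sub_eq_zero]; ring_nf; simp [h2, h4, h6, h8, h10, h12, h14, h16]))) (congrArg₂ (· * ·) (congrArg (x 44) (by first | ring1 | (rw [← sub_eq_zero]; ring_nf; simp [h2, h4, h6, h8, h10, h12, h14, h16]))) (congrArg₂ (· * ·) (congrArg (x 45) (by first | ring1 | (rw [← sub_eq_zero]; ring_nf; simp [h2, h4, h6, h8, h10, h12, h14, h16]))) (congrArg₂ (· * ·) (congrArg (x 46) (by first | ring1 | (rw [← sub_eq_zero]; ring_nf; simp [h2, h4, h6, h8, h10, h12, h14, h16]))) (congrArg₂ (· * ·) (congrArg (x 47) (by first | ring1 | (rw [← sub_eq_zero]; ring_nf; simp [h2, h4, h6, h8, h10, h12, h14, h16]))) (rfl))))))))))))))))))))))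

set_option maxHeartbeats 4000000 in
theorem nC_W (a24 a26 a29 a31 a32 a33 a34 a35 a36 a37 a38 a39 a40 a41 a42 a43 a44 a45 a46 a47 : K) : nC * W a24 0 a26 0 0 a29 0 a31 a32 a33 a34 a35 a36 a37 a38 a39 a40 a41 a42 a43 a44 a45 a46 a47 * nC⁻¹ = W (a32) 0 (a31) 0 0 (a29) 0 (a26) (a24) (a37) (a35) (a34) (a40) (a33) (a39) (a38) (a36) (a41) (a46) (a45) (a44 + a33*a40 + a36*a37) (a43) (a42) (a47) := by
  have h2 : (2 : K) = 0 := CharTwo.two_eq_zero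
  have h4 : (4 : K) = 0 := by linear_combination 2 * h2
  have h6 : (6 : K) = 0 := by linear_combination 3 * h2
  have h8 : (8 : K) = 0 := by linear_combination 4 * h2
  have h10 : (10 : K) = 0 := by linear_combination 5 * h2
  have h12 : (12 : K) = 0 := by linear_combination 6 * h2
  have h14 : (14 : K) = 0 := by linear_combination 7 * h2
  have h16 : (16 : K) = 0 := by linear_combination 8 * h2
  obtain ⟨t24, t26, t29, t31, t32, t33, t34, t35, t36, t37, t38, t39, t40, t41, t42, t43, t44, t45, t46, t47⟩ := wC_tab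
  rw [conj_W]
  simp only [conj_x0, one_mul, nC_conj (s := 24) (by decide), nC_conj (s := 26) (by decide), nC_conj (s := 29) (by decide), nC_conj (s := 31) (by decide), nC_conj (s := 32) (by decide), nC_conj (s := 33) (by decide), nC_conj (s := 34) (by decide), nC_conj (s := 35) (by decide), nC_conj (s := 36) (by decide), nC_conj (s := 37) (by decide), nC_conj (s := 38) (by decide), nC_conj (s := 39) (by decide), nC_conj (s := 40) (by decide), nC_conj (s := 41) (by decide), nC_conj (s := 42) (by decide), nC_conj (s := 43) (by decide), nC_conj (s := 44) (by decide), nC_conj (s := 45) (by decide), nC_conj (s := 46) (by decide), nC_conj (s := 47) (by decide), t24, t26, t29, t31, t32, t33, t34, t35, t36, t37, t38, t39, t40, t41, t42, t43, t44, t45, t46, t47]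
  show x 32 a24 * (x 31 a26 * (x 29 a29 * (x 26 a31 * (x 24 a32 * (x 37 a33 * (x 35 a34 * (x 34 a35 * (x 40 a36 * (x 33 a37 * (x 39 a38 * (x 38 a39 * (x 36 a40 * (x 41 a41 * (x 46 a42 * (x 45 a43 * (x 44 a44 * (x 43 a45 * (x 42 a46 * (x 47 a47 * 1))))))))))))))))))) = _
  unfold W
  simp only [x_zero, one_mul, s_25_24, s_26_24, s_27_24, s_28_24, s_29_24, s_30_24, s_31_24, s_32_24, s_33_24, s_34_24, s_35_24, s_36_24, s_37_24, s_38_24, s_39_24, s_40_24, s_41_24, s_42_24, s_43_24, s_44_24, s_45_24, s_46_24, s_47_24, s_26_25, s_27_25, s_28_25, s_29_25, s_30_25, s_31_25, s_32_25, s_33_25, s_34_25, s_35_25, s_36_25, s_37_25, s_38_25, s_39_25, s_40_25, s_41_25, s_42_25, s_43_25, s_44_25, s_45_25, s_46_25, s_47_25, s_27_26, s_28_26, s_29_26, s_30_26, s_31_26, s_32_26, s_33_26, s_34_26, s_35_26, s_36_26, s_37_26, s_38_26, s_39_26, s_40_26, s_41_26, s_42_26, s_43_26, s_44_26, s_45_26,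 s_46_26, s_47_26, s_28_27, s_29_27, s_30_27, s_31_27, s_32_27, s_33_27, s_34_27, s_35_27, s_36_27, s_37_27, s_38_27, s_39_27, s_40_27, s_41_27, s_42_27, s_43_27, s_44_27, s_45_27, s_46_27, s_47_27, s_29_28, s_30_28, s_31_28, s_32_28, s_33_28, s_34_28, s_35_28, s_36_28, s_37_28, s_38_28, s_39_28, s_40_28, s_41_28, s_42_28, s_43_28, s_44_28, s_45_28, s_46_28, s_47_28, s_30_29, s_31_29, s_32_29, s_33_29, s_34_29, s_35_29, s_36_29, s_37_29, s_38_29, s_39_29, s_40_29, s_41_29, s_42_29, s_43_29, s_44_29, s_45_29, s_46_29, s_47_29, s_31_30, s_32_30, s_33_30, s_34_30, s_35_30, s_36_30, s_37_30, s_38_30, s_39_30, s_40_30, s_41_30, s_42_30, s_43_30, s_44_30, s_45_30, s_46_30, s_47_30, s_32_31, s_33_31, s_34_31, s_35_31, s_36_31, s_37_31, s_38_31, s_39_31, s_40_31, s_41_31, s_42_31, s_43_31, s_44_31, s_45_31, s_46_31, s_47_31, s_33_32, s_34_32, s_35_32, s_36_32, s_37_32, s_38_32, s_39_32,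 s_40_32, s_41_32, s_42_32, s_43_32, s_44_32, s_45_32, s_46_32, s_47_32, s_34_33, s_35_33, s_36_33, s_37_33, s_38_33, s_39_33, s_40_33, s_41_33, s_42_33, s_43_33, s_44_33, s_45_33, s_46_33, s_47_33, s_35_34, s_36_34, s_37_34, s_38_34, s_39_34, s_40_34, s_41_34, s_42_34, s_43_34, s_44_34, s_45_34, s_46_34, s_47_34, s_36_35, s_37_35, s_38_35, s_39_35, s_40_35, s_41_35, s_42_35, s_43_35, s_44_35, s_45_35, s_46_35, s_47_35, s_37_36, s_38_36, s_39_36, s_40_36, s_41_36, s_42_36, s_43_36, s_44_36, s_45_36, s_46_36, s_47_36, s_38_37, s_39_37, s_40_37, s_41_37, s_42_37, s_43_37, s_44_37, s_45_37, s_46_37, s_47_37, s_39_38, s_40_38, s_41_38, s_42_38, s_43_38, s_44_38, s_45_38, s_46_38, s_47_38, s_40_39, s_41_39, s_42_39, s_43_39, s_44_39, s_45_39, s_46_39, s_47_39, s_41_40, s_42_40, s_43_40, s_44_40, s_45_40, s_46_40, s_47_40, s_42_41, s_43_41, s_44_41, s_45_41, s_46_41, s_47_41, s_43_42,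 s_44_42, s_45_42, s_46_42, s_47_42, s_44_43, s_45_43, s_46_43, s_47_43, s_45_44, s_46_44, s_47_44, s_46_45, s_47_45, s_47_46, mg_24, mg_25, mg_26, mg_27, mg_28, mg_29, mg_30, mg_31, mg_32, mg_33, mg_34, mg_35, mg_36, mg_37, mg_38, mg_39, mg_40, mg_41, mg_42, mg_43, mg_44, mg_45, mg_46, mg_47]
  exact congrArg₂ (· * ·) (congrArg (x 24) (by first | ring1 | (rw [← sub_eq_zero]; ring_nf; simp [h2, h4, h6, h8, h10, h12, h14, h16]))) (congrArg₂ (· * ·) (congrArg (x 26) (by first | ring1 | (rw [← sub_eq_zero]; ring_nf; simp [h2, h4, h6, h8, h10, h12, h14, h16]))) (congrArg₂ (· * ·) (congrArg (x 29) (by first | ring1 | (rw [← sub_eq_zero]; ring_nf; simp [h2, h4, h6, h8, h10, h12, h14, h16]))) (congrArg₂ (· * ·) (congrArg (x 31) (by first | ring1 | (rw [← sub_eq_zero]; ring_nf; simp [h2, h4, h6, h8, h10, h12, h14, h16]))) (congrArg₂ (· * ·) (congrArg (x 32) (by first | ring1 | (rw [←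 sub_eq_zero]; ring_nf; simp [h2, h4, h6, h8, h10, h12, h14, h16]))) (congrArg₂ (· * ·) (congrArg (x 33) (by first | ring1 | (rw [← sub_eq_zero]; ring_nf; simp [h2, h4, h6, h8, h10, h12, h14, h16]))) (congrArg₂ (· * ·) (congrArg (x 34) (by first | ring1 | (rw [← sub_eq_zero]; ring_nf; simp [h2, h4, h6, h8, h10, h12, h14, h16]))) (congrArg₂ (· * ·) (congrArg (x 35) (by first | ring1 | (rw [← sub_eq_zero]; ring_nf; simp [h2, h4, h6, h8, h10, h12, h14, h16]))) (congrArg₂ (· * ·) (congrArg (x 36) (by first | ring1 | (rw [← sub_eq_zero]; ring_nf; simp [h2, h4, h6, h8, h10, h12, h14, h16]))) (congrArg₂ (· * ·) (congrArg (x 37) (by first | ring1 | (rw [← sub_eq_zero]; ring_nf; simp [h2, h4, h6, h8, h10, h12, h14, h16]))) (congrArg₂ (· * ·) (congrArg (x 38) (by first | ring1 | (rw [← sub_eq_zero]; ring_nf; simp [h2, h4, h6, h8, h10, h12, h14, h16]))) (congrArg₂ (· * ·) (congrArg (x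 39) (by first | ring1 | (rw [← sub_eq_zero]; ring_nf; simp [h2, h4, h6, h8, h10, h12, h14, h16]))) (congrArg₂ (· * ·) (congrArg (x 40) (by first | ring1 | (rw [← sub_eq_zero]; ring_nf; simp [h2, h4, h6, h8, h10, h12, h14, h16]))) (congrArg₂ (· * ·) (congrArg (x 41) (by first | ring1 | (rw [← sub_eq_zero]; ring_nf; simp [h2, h4, h6, h8, h10, h12, h14, h16]))) (congrArg₂ (· * ·) (congrArg (x 42) (by first | ring1 | (rw [← sub_eq_zero]; ring_nf; simp [h2, h4, h6, h8, h10, h12, h14, h16]))) (congrArg₂ (· * ·) (congrArg (x 43) (by first | ring1 | (rw [← sub_eq_zero]; ring_nf; simp [h2, h4, h6, h8, h10, h12, h14, h16]))) (congrArg₂ (· * ·) (congrArg (x 44) (by first | ring1 | (rw [← sub_eq_zero]; ring_nf; simp [h2, h4, h6, h8, h10, h12, h14, h16]))) (congrArg₂ (· * ·) (congrArg (x 45) (by first | ring1 | (rw [← sub_eq_zero]; ring_nf; simp [h2, h4, h6, h8, h10, h12, h14, h16]))) (congrArg₂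 (· * ·) (congrArg (x 46) (by first | ring1 | (rw [← sub_eq_zero]; ring_nf; simp [h2, h4, h6, h8, h10, h12, h14, h16]))) (congrArg₂ (· * ·) (congrArg (x 47) (by first | ring1 | (rw [← sub_eq_zero]; ring_nf; simp [h2, h4, h6, h8, h10, h12, h14, h16]))) (rfl))))))))))))))))))))

end Weyl

end Cfsg.Agent.Lib.F4Inv50
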