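import Cfsg.Agent.Lib.F4Inv50D

/-!
# The unipotent group of `²F₄(q)`: steps
-/

set_option autoImplicit false
set_option linter.unusedSectionVars false
set_option linter.unusedVariables false
set_option linter.unusedSimpArgs false
set_option maxRecDepth 100000

namespace Cfsg.Agent.Lib.F4Inv50

open Cfsg Cfsg.Lie Cfsg.Agent.Lib.Chev Cfsg.Agent.Lib.Chev.TwF4

section Steps

variable {K : Type*} [Field K] [CharP K 2] (f : K ≃+* K)

set_option maxHeartbeats 4000000 in
theorem sq1 (hθ : ∀ t, (f (f t)) ^ 2 = t) {t1 u1 v2 t3 u3 v4 t5 u5 v6 t7 u7 v8 : K}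
    (h : E f (t1) (u1) (v2) (t3) (u3) (v4) (t5) (u5) (v6) (t7) (u7) (v8) * E f (t1) (u1) (v2) (t3) (u3) (v4) (t5) (u5) (v6) (t7) (u7) (v8) = 1) : t1*(f t1) = 0 := by
  have h2 : (2 : K) = 0 := CharTwo.two_eq_zero
  unfold E at h
  rw [W_mul, ← W_zero] at h
  obtain ⟨h24, h25, h26, h27, h28, h29, h30, h31, h32, h33, h34, h35, h36, h37, h38, h39, h40, h41, h42, h43, h44, h45, h46, h47⟩ := W_inj h
  try simp only [map_zero] at *
  · linear_combination (-u1) * h2 + h28

set_option maxHeartbeats 4000000 in
theorem sq2 (hθ : ∀ t, (f (f t)) ^ 2 = t) {u1 v2 t3 u3 v4 t5 u5 v6 t7 u7 v8 : K}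
    (h : E f 0 (u1) (v2) (t3) (u3) (v4) (t5) (u5) (v6) (t7) (u7) (v8) * E f 0 (u1) (v2) (t3) (u3) (v4) (t5) (u5) (v6) (t7) (u7) (v8) = 1) : u1*v8 = 0 ∧ t7*(f u1)^2 + u1^2*v8 = 0 := by
  have h2 : (2 : K) = 0 := CharTwo.two_eq_zero
  unfold E at h
  rw [W_mul, ← W_zero] at h
  obtain ⟨h24, h25, h26, h27, h28, h29, h30, h31, h32, h33, h34, h35, h36, h37, h38, h39, h40, h41, h42, h43, h44, h45, h46, h47⟩ := W_inj h
  try simp only [map_zero] at *
  refine ⟨?_, ?_⟩
  · linear_combination (-(f t5) - u1*v8) * h2 + h29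
  · linear_combination (-v2 - t7*(f u1)^2 - u1^2*v8) * h2 + h32

set_option maxHeartbeats 4000000 in
theorem stA1 (hθ : ∀ t, (f (f t)) ^ 2 = t) (v2 t3 u3 v4 t5 u5 v6 u7 v8 y : K) :
    E f (y) 0 0 0 0 0 0 0 0 0 0 0 * E f 0 0 (v2) (t3) (u3) (v4) (t5) (u5) (v6) (v8*y) (u7) (v8) = E f 0 0 (v2 + t3*y + v8*y^2*(f y)^2) (t3) (u3 + (f v4)*(f y) + u7*y*(f y)^2 + y*(f t5)*(f v8)*(f y)^2 + v8*y^2*(f v8)*(f y)^3) (v4 + v6*(f y)^2 + y*(f u7)^2*(f y)^2) (t5 + y*(f v8)^2*(f y)^2) (u5 + v6*(f y) + u7*y*(f v8)*(f y)^2 + y*(f t5)*(f v8)^2*(f y)^2 + v8*y^2*(f v8)^2*(f y)^3) (v6 + y*(f u7)^2 + v8*y^2*(f v8)^2*(f y)^2) 0 (u7) (v8) * E f (y) 0 0 0 0 0 0 0 0 0 0 0 := by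
  have h2 : (2 : K) = 0 := CharTwo.two_eq_zero
  unfold E
  rw [W_mul, W_mul]
  apply W_congr
  · (try simp only [map_add, map_mul, map_pow, map_zero]) <;> linear_combination (0 : K) * h2
  · (try simp only [map_add, map_mul, map_pow, map_zero]) <;> linear_combination (0 : K) * h2
  · (try simp only [map_add, map_mul, map_pow, map_zero]) <;> linear_combination (v8*y) * h2
  · (try simp only [map_add, map_mul, map_pow, map_zero]) <;> linear_combination (0 : K) * h2
  · (try simp only [map_add, map_mul, map_pow, map_zero]) <;> linear_combination (0 : K) * h2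
  · (try simp only [map_add, map_mul, map_pow, map_zero]) <;> linear_combination (-(f y)*(f (f y))^2) * hθ v8 + (-v8*(f y)) * hθ y
  · (try simp only [map_add, map_mul, map_pow, map_zero]) <;> linear_combination (0 : K) * h2
  · (try simp only [map_add, map_mul, map_pow, map_zero]) <;> linear_combination (v8*y*(f y)^2) * h2
  · (try simp only [map_add, map_mul, map_pow, map_zero]) <;> linear_combination (-t3*y) * h2
  · (try simp only [map_add, map_mul, map_pow, map_zero]) <;> linear_combination (0 : K) * h2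
  · (try simp only [map_add, map_mul, map_pow, map_zero]) <;> linear_combination (0 : K) * h2
  · (try simp only [map_add, map_mul, map_pow, map_zero]) <;> linear_combination (0 : K) * h2
  · (try simp only [map_add, map_mul, map_pow, map_zero]) <;> linear_combination (0 : K) * h2
  · (try simp only [map_add, map_mul, map_pow, map_zero]) <;> linear_combination (-(f t3)*(f y) - y*(f v8)*(f y)^2) * h2 + (-(f v8)*(f y)^2) * hθ y
  · (try simp only [map_add, map_mul, map_pow, map_zero]) <;> linear_combination (-u7*(f y) - v8*(f t3)*(f y) - v8*y*(f v8)*(f y)^2) * h2 + (-(f y)) * hθ u7 + (-(f v8)*(f y)^2*(f (f y))^2) * hθ v8 + (-2*v8*(f v8)*(f y)^2) * hθ y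
  · (try simp only [map_add, map_mul, map_pow, map_zero]) <;> linear_combination (-y*(f v6) - u7*y*(f y) - v8*y*(f t3)*(f y) - v8*y^2*(f v8)*(f y)^2) * h2 + (-y*(f y) - (f y)*(f (f y))^2) * hθ u7 + (-(f t3)*(f y)*(f (f y))^2 - y*(f v8)*(f y)^2*(f (f y))^2) * hθ v8 + (-(f v6) - u7*(f y) - v8*(f t3)*(f y) - 2*v8*y*(f v8)*(f y)^2) * hθ y
  · (try simp only [map_add, map_mul, map_pow, map_zero]) <;> linear_combination (-(f v4)*(f y) - y*(f v6)*(f y) - (f t3)*(f t5)*(f y) - 2*u7*y*(f y)^2 - v8*y*(f v2)*(f y) - 2*v8*y*(f t3)*(f y)^2 - y*(f t5)*(f v8)*(f y)^2 - 2*v8*y^2*(f v8)*(f y)^3) * h2 + (-y*(f y)^2 - (f y)^2*(f (f y))^2) * hθ u7 + (-(f v2)*(f y)*(f (f y))^2 - 2*(f t3)*(f y)^2*(f (f y))^2 - y*(f v8)*(f y)^3*(f (f y))^2 - (f v8)*(f y)^3*(f (f y))^4) * hθ v8 + (-(f v6)*(f y) - u7*(f y)^2 - v8*(f v2)*(f y) - 2*v8*(f t3)*(f y)^2 - (f t5)*(f v8)*(f y)^2 - 3*v8*y*(f v8)*(f y)^3 - v8*(f v8)*(f y)^3*(f (f y))^2) * hθ y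
  · (try simp only [map_add, map_mul, map_pow, map_zero]) <;> linear_combination (-y*(f v8)^2*(f y)^2) * h2
  · (try simp only [map_add, map_mul, map_pow, map_zero]) <;> linear_combination (0 : K) * h2
  · (try simp only [map_add, map_mul, map_pow, map_zero]) <;> linear_combination (-y*(f u7)^2 - v8*y^2*(f v8)^2*(f y)^2) * h2
  · (try simp only [map_add, map_mul, map_pow, map_zero]) <;> linear_combination (-v6*(f y) - u7*(f t3)*(f y) - t5*v8*y*(f y) - v8*(f t3)^2*(f y) - y*(f u7)^2*(f y) - 2*u7*y*(f v8)*(f y)^2 - v8*y*(f t3)*(f v8)*(f y)^2 - 2*y*(f t5)*(f v8)^2*(f y)^2 - 3*v8*y^2*(f v8)^2*(f y)^3) * h2 + (-t5*(f y)*(f (f y))^2 - (f v2)*(f v8)*(f y)*(f (f y))^2 - (f t3)*(f v8)*(f y)^2*(f (f y))^2 - y*(f v8)^2*(f y)^3*(f (f y))^2 - (f v8)^2*(f y)^3*(f (f y))^4) * hθ v8 + (-t5*v8*(f y) - u7*(f v8)*(f y)^2 - v8*(f v2)*(f v8)*(f y) - v8*(f t3)*(f v8)*(f y)^2 - (f t5)*(f v8)^2*(f y)^2 - 2*v8*y*(f v8)^2*(f y)^3 - v8*(f v8)^2*(f y)^3*(f (f y))^2) * hθ y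
  · (try simp only [map_add, map_mul, map_pow, map_zero]) <;> linear_combination (-v6*(f y)^2 - v8*(f t3)*(f v2)*(f y) - t5*v8*y*(f y)^2 - v8*(f t3)^2*(f y)^2 - 2*y*(f u7)^2*(f y)^2 - v8*y*(f v2)*(f v8)*(f y)^2 - v8*y*(f t3)*(f v8)*(f y)^3 - 2*v8*y^2*(f v8)^2*(f y)^4) * h2 + (-2*v8*(f v2)*(f v8)*(f y)^2 - 2*v8*(f t3)*(f v8)*(f y)^3 - v8*y*(f v8)^2*(f y)^4 - v8*(f v8)^2*(f y)^4*(f (f y))^2) * hθ y
  · (try simp only [map_add, map_mul, map_pow, map_zero]) <;> linear_combination (-v4*y - (f u3)*(f (f v4))*(f (f y)) - v6*y*(f y)^2 - y*(f u3)*(f u7)*(f y) - v8*y*(f t3)*(f v2)*(f y) - y*(f u3)*(f y)*(f (f t5))*(f (f v8)) - y*(f u7)*(f y)*(f (f v4))*(f (f y)) - t5*v8*y^2*(f y)^2 - v8*y*(f t3)^2*(f y)^2 - 2*y^2*(f u7)^2*(f y)^2 - y*(f y)*(f (f t5))*(f (f v4))*(f (f v8))*(f (f y)) - v8*y^2*(f v2)*(f v8)*(f y)^2 - y^2*(f u7)*(f y)^2*(f (f t5))*(f (f v8)) - y^2*(f v8)*(f y)^2*(f (f v4))*(f (f v8)) - y*(f u3)*(f v8)*(f y)^2*(f (f v8))*(f (f y)) - v8*y^2*(f t3)*(f v8)*(f y)^3 - v8*y^2*(f v8)*(f y)^3*(f (f t5))*(f (f y)) - y^2*(f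 u7)*(f v8)*(f y)^3*(f (f v8))*(f (f y)) - 2*v8*y^3*(f v8)^2*(f y)^4) * h2 + (-v4 - 2*(f u3)*(f u7)*(f y) - 2*(f u3)*(f y)*(f (f t5))*(f (f v8)) - 2*(f u7)*(f y)*(f (f v4))*(f (f y)) - t5*v8*y*(f y)^2 - y*(f u7)^2*(f y)^2 - 2*(f y)*(f (f t5))*(f (f v4))*(f (f v8))*(f (f y)) - t5*v8*(f y)^2*(f (f y))^2 - 2*v8*y*(f v2)*(f v8)*(f y)^2 - 2*y*(f u7)*(f y)^2*(f (f t5))*(f (f v8)) - 2*y*(f v8)*(f y)^2*(f (f v4))*(f (f v8)) - 2*(f u3)*(f v8)*(f y)^2*(f (f v8))*(f (f y)) - (f u7)^2*(f y)^2*(f (f y))^2 - 2*v8*y*(f t3)*(f v8)*(f y)^3 - 2*(f u7)*(f y)^2*(f (f t5))*(f (f v8))*(f (f y))^2 - 2*(f v8)*(f y)^2*(f (f v4))*(f (f v8))*(f (f y))^2 - 2*v8*y*(f v8)*(f y)^3*(f (f t5))*(f (f y)) - 2*y*(f u7)*(f v8)*(f y)^3*(f (f v8))*(f (f y)) - 2*v8*y^2*(f v8)^2*(f y)^4 - 2*v8*(f v8)*(f y)^3*(f (f t5))*(f (f y))^3 - 2*(f u7)*(f v8)*(f y)^3*(f (f v8))*(f (f y))^3 - 2*v8*y*(f v8)^2*(f y)^4*(f (f y))^2 - v8*(f v8)^2*(f y)^4*(f (f y))^4) * hθ y + (-t5*(f y)^2*(f (f y))^4 - 2*(f v8)*(f y)^3*(f (f t5))*(f (f y))^5 - (f v8)^2*(f y)^4*(f (f y))^6)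 * hθ v8 + (-(f y)^2*(f (f v8))^2*(f (f y))^4) * hθ t5 + (-(f (f y))^2) * hθ v4
  · (try simp only [map_add, map_mul, map_pow, map_zero]) <;> linear_combination (-y*(f v6)^2 - (f u5)*(f v6)*(f (f y)) - u7*y*(f v6)*(f y) - v8*y*(f v2)*(f v6) - v8*(f u3)*(f (f v4))*(f (f y)) - u7^2*y*(f y)^2 - u7*v8*y*(f v2)*(f y) - v8*y*(f t3)*(f v6)*(f y) - v8*y*(f u3)*(f u7)*(f y) - v8*y*(f u5)*(f y)*(f (f t5)) - y*(f u5)*(f u7)*(f y)*(f (f v8)) - 2*u7*v8*y*(f t3)*(f y)^2 - v8^2*y*(f t3)*(f v2)*(f y) - v8*y*(f u3)*(f y)*(f (f t5))*(f (f v8)) - v8*y*(f u7)*(f y)*(f (f v4))*(f (f y)) - v8*y*(f v6)*(f y)*(f (f t5))*(f (f y)) - y*(f u7)*(f v6)*(f y)*(f (f v8))*(f (f y)) - t5*v8^2*y^2*(f y)^2 - v8^2*y*(f t3)^2*(f y)^2 - v8*y^2*(f u7)^2*(f y)^2 - 3*v8*y^2*(f v6)*(f v8)*(f y)^2 - v8*y*(f u5)*(f v8)*(f y)^2*(f (f y)) - v8*y*(f y)*(f (f t5))*(f (f v4))*(f (f v8))*(f (f y)) - 2*u7*v8*y^2*(f v8)*(f y)^3 - 2*v8^2*y^2*(f v2)*(f v8)*(f y)^2 - 2*v8*y^2*(f u7)*(f y)^2*(f (f t5))*(f (f v8)) - v8*y^2*(f v8)*(f y)^2*(f (f v4))*(f (f v8)) - v8*y*(f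 u3)*(f v8)*(f y)^2*(f (f v8))*(f (f y)) - 2*v8^2*y^2*(f t3)*(f v8)*(f y)^3 - 2*v8^2*y^2*(f v8)*(f y)^3*(f (f t5))*(f (f y)) - 2*v8*y^2*(f u7)*(f v8)*(f y)^3*(f (f v8))*(f (f y)) - 3*v8^2*y^3*(f v8)^2*(f y)^4) * h2 + (-2*y*(f v6)*(f y) - u7*y*(f y)^2 - 2*v8*y*(f v2)*(f y) - 2*v8*y*(f t3)*(f y)^2 - y*(f y)^2*(f (f u7))^2 - 2*v8*y*(f v8)*(f y)^3*(f (f y))^2 - 2*y*(f v8)*(f y)^3*(f (f v8))^2*(f (f y))^2) * hθ u7 + (-2*(f u5)*(f y)*(f (f t5))*(f (f y))^2 - 2*(f v6)*(f y)*(f (f t5))*(f (f y))^3 - 2*y*(f v6)*(f v8)*(f y)^2*(f (f y))^2 - 2*(f u5)*(f v8)*(f y)^2*(f (f y))^3 - 2*t5*v8*(f y)^2*(f (f y))^4 - 2*u7*y*(f v8)*(f y)^3*(f (f y))^2 - 2*v8*y*(f v2)*(f v8)*(f y)^2*(f (f y))^2 - (f u7)^2*(f y)^2*(f (f y))^4 - 2*(f v6)*(f v8)*(f y)^2*(f (f y))^4 - t5*(f y)^2*(f (f v8))^2*(f (f y))^4 - 2*v8*y*(f t3)*(f v8)*(f y)^3*(f (f y))^2 - 2*(f u7)*(f y)^2*(f (f t5))*(f (f v8))*(f (f y))^4 - 4*v8*(f v8)*(f y)^3*(f (f t5))*(f (f y))^5 - 2*(f u7)*(f v8)*(f y)^3*(f (f v8))*(f (f y))^5 - 3*v8*y*(f v8)^2*(f y)^4*(f (f y))^4 - 2*(f v8)*(f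 y)^3*(f (f t5))*(f (f v8))^2*(f (f y))^5 - 2*v8*(f v8)^2*(f y)^4*(f (f y))^6 - y*(f v8)^2*(f y)^4*(f (f v8))^2*(f (f y))^4 - (f v8)^2*(f y)^4*(f (f v8))^2*(f (f y))^6) * hθ v8 + (-v4*v8 - (f v6)^2 - 2*v8*(f u3)*(f u7)*(f y) - 2*v8*(f u5)*(f y)*(f (f t5)) - 2*(f u5)*(f u7)*(f y)*(f (f v8)) - 2*v8*(f u3)*(f y)*(f (f t5))*(f (f v8)) - 2*v8*(f u7)*(f y)*(f (f v4))*(f (f y)) - 2*v8*(f v6)*(f y)*(f (f t5))*(f (f y)) - 2*(f u7)*(f v6)*(f y)*(f (f v8))*(f (f y)) - 2*t5*v8^2*y*(f y)^2 - 2*v8*y*(f u7)^2*(f y)^2 - 6*v8*y*(f v6)*(f v8)*(f y)^2 - 2*v8*(f u5)*(f v8)*(f y)^2*(f (f y)) - 2*v8*(f y)*(f (f t5))*(f (f v4))*(f (f v8))*(f (f y)) - 2*t5*v8^2*(f y)^2*(f (f y))^2 - 4*u7*v8*y*(f v8)*(f y)^3 - 4*v8^2*y*(f v2)*(f v8)*(f y)^2 - 4*v8*y*(f u7)*(f y)^2*(f (f t5))*(f (f v8)) - 2*v8*y*(f v8)*(f y)^2*(f (f v4))*(f (f v8)) - 2*v8*(f u3)*(f v8)*(f y)^2*(f (f v8))*(f (f y)) - 2*v8*(f u7)^2*(f y)^2*(f (f y))^2 - 2*v8*(f v6)*(f v8)*(f y)^2*(f (f y))^2 - 4*v8^2*y*(f t3)*(f v8)*(f y)^3 - 4*v8*(f u7)*(f y)^2*(f (f t5))*(f (f v8))*(f (f y))^2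 - 2*v8*(f v8)*(f y)^2*(f (f v4))*(f (f v8))*(f (f y))^2 - 4*v8^2*y*(f v8)*(f y)^3*(f (f t5))*(f (f y)) - 4*v8*y*(f u7)*(f v8)*(f y)^3*(f (f v8))*(f (f y)) - 6*v8^2*y^2*(f v8)^2*(f y)^4 - 4*v8^2*(f v8)*(f y)^3*(f (f t5))*(f (f y))^3 - 4*v8*(f u7)*(f v8)*(f y)^3*(f (f v8))*(f (f y))^3 - 6*v8^2*y*(f v8)^2*(f y)^4*(f (f y))^2 - 2*v8^2*(f v8)^2*(f y)^4*(f (f y))^4) * hθ y + (-v8*(f y)^2*(f (f v8))^2*(f (f y))^4 - (f y)^2*(f (f v8))^4*(f (f y))^4) * hθ t5 + (-v8*(f (f y))^2) * hθ v4

set_option maxHeartbeats 4000000 in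
theorem stA2 (hθ : ∀ t, (f (f t)) ^ 2 = t) (v2 u3 v4 t5 u5 v6 u7 v8 w : K) :
    E f 0 (w) 0 0 0 0 0 0 0 0 0 0 * E f 0 0 (v2) (v8*(f w)^2) (u3) (v4) (t5) (u5) (v6) 0 (u7) (v8) = E f 0 0 (v2 + v8*w^2) 0 (u3 + w*(f v6) + u7*(f w)^2 + (f t5)*(f v8)*(f w)^2) (v4 + t5*v8*(f w)^2 + (f u7)^2*(f w)^2 + v8*(f v8)^2*(f w)^4) (t5 + (f v8)^2*(f w)^2) (u5 + w*(f u7)^2 + w*(f v6)*(f v8) + u7*(f v8)*(f w)^2 + (f t5)*(f v8)^2*(f w)^2) (v6 + v8*w^2*(f v8)^2) 0 (u7 + v8*w*(f v8)) (v8) * E f 0 (w) 0 0 0 0 0 0 0 0 0 0 := by
  have h2 : (2 : K) = 0 := CharTwo.two_eq_zero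
  unfold E
  rw [W_mul, W_mul]
  apply W_congr
  · (try simp only [map_add, map_mul, map_pow, map_zero]) <;> linear_combination (0 : K) * h2
  · (try simp only [map_add, map_mul, map_pow, map_zero]) <;> linear_combination (0 : K) * h2
  · (try simp only [map_add, map_mul, map_pow, map_zero]) <;> linear_combination (0 : K) * h2
  · (try simp only [map_add, map_mul, map_pow, map_zero]) <;> linear_combination (0 : K) * h2
  · (try simp only [map_add, map_mul, map_pow, map_zero]) <;> linear_combination (0 : K) * h2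
  · (try simp only [map_add, map_mul, map_pow, map_zero]) <;> linear_combination (-(f (f w))^2) * hθ v8 + (-v8) * hθ w
  · (try simp only [map_add, map_mul, map_pow, map_zero]) <;> linear_combination (0 : K) * h2
  · (try simp only [map_add, map_mul, map_pow, map_zero]) <;> linear_combination (v8*(f w)^2) * h2
  · (try simp only [map_add, map_mul, map_pow, map_zero]) <;> linear_combination (0 : K) * h2
  · (try simp only [map_add, map_mul, map_pow, map_zero]) <;> linear_combination (0 : K) * h2
  · (try simp only [map_add, map_mul, map_pow, map_zero]) <;> linear_combination (0 : K) * h2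
  · (try simp only [map_add, map_mul, map_pow, map_zero]) <;> linear_combination ((f v8)) * hθ w
  · (try simp only [map_add, map_mul, map_pow, map_zero]) <;> linear_combination (v8*(f v8)) * hθ w
  · (try simp only [map_add, map_mul, map_pow, map_zero]) <;> linear_combination (-(f v8)*(f w)^2) * h2
  · (try simp only [map_add, map_mul, map_pow, map_zero]) <;> linear_combination (-v8*(f v8)*(f w)^2) * h2 + (-(f v8)*(f w)^2) * hθ v8
  · (try simp only [map_add, map_mul, map_pow, map_zero]) <;> linear_combination (-u7*w - v8*w^2*(f v8)) * h2 + (-(f (f w))^2) * hθ u7 + (-(f v8)*(f (f w))^4) * hθ v8 + (-u7 - v8*w*(f v8) - v8*(f v8)*(f (f w))^2) * hθ w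
  · (try simp only [map_add, map_mul, map_pow, map_zero]) <;> linear_combination (-w*(f v6) - u7*(f w)^2 - v8*w*(f v2) - (f t5)*(f v8)*(f w)^2 - 2*v8*w*(f v8)*(f w)^2) * h2 + (-(f v2)*(f (f w))^2 - w*(f v8)*(f w)^2 - (f v8)*(f w)^2*(f (f w))^2) * hθ v8 + (-v8*(f v2) - v8*(f v8)*(f w)^2) * hθ w
  · (try simp only [map_add, map_mul, map_pow, map_zero]) <;> linear_combination (-(f v8)^2*(f w)^2) * h2
  · (try simp only [map_add, map_mul, map_pow, map_zero]) <;> linear_combination (-(f u7)*(f v8)*(f w)*(f (f v8)) - v8*(f v8)^2*(f w)^2) * h2 + (-(f v8)^2*(f w)^2) * hθ v8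
  · (try simp only [map_add, map_mul, map_pow, map_zero]) <;> linear_combination (v8*w*(f v8)^2 + v8*(f v8)^2*(f (f w))^2) * hθ w
  · (try simp only [map_add, map_mul, map_pow, map_zero]) <;> linear_combination (-t5*v8*w - w*(f u7)^2 - w*(f v6)*(f v8) - 2*u7*(f v8)*(f w)^2 - v8*w*(f v2)*(f v8) - w*(f u7)*(f v8)*(f w)*(f (f v8)) - 2*(f t5)*(f v8)^2*(f w)^2 - 3*v8*w*(f v8)^2*(f w)^2) * h2 + (-t5*(f (f w))^2 - (f v2)*(f v8)*(f (f w))^2 - w*(f v8)^2*(f w)^2 - 2*(f v8)^2*(f w)^2*(f (f w))^2) * hθ v8 + (-t5*v8 - v8*(f v2)*(f v8) - 2*v8*(f v8)^2*(f w)^2) * hθ w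
  · (try simp only [map_add, map_mul, map_pow, map_zero]) <;> linear_combination (-t5*v8*(f w)^2 - (f u7)^2*(f w)^2 - v8*(f v2)*(f v8)*(f w)^2 - (f u7)*(f v8)*(f w)^3*(f (f v8)) - 2*v8*(f v8)^2*(f w)^4) * h2 + (-(f v8)^2*(f w)^4) * hθ v8
  · (try simp only [map_add, map_mul, map_pow, map_zero]) <;> linear_combination (-v6*(f w)^2 - w*(f u3)*(f u7) - (f u3)*(f w)*(f (f v6)) - t5*v8*w^2 - w^2*(f u7)^2 - w*(f u3)*(f (f t5))*(f (f v8)) - w*(f u7)*(f w)*(f (f v6)) - w^2*(f u7)*(f (f t5))*(f (f v8)) - w*(f w)*(f (f t5))*(f (f v6))*(f (f v8)) - w^2*(f u7)*(f v8)*(f w)*(f (f v8)) - v8*w^2*(f v8)^2*(f w)^2) * h2 + (-2*(f u3)*(f u7) - t5*v8*w - w*(f u7)^2 - 2*(f u3)*(f (f t5))*(f (f v8)) - 2*(f u7)*(f w)*(f (f v6)) - t5*v8*(f (f w))^2 - 2*w*(f u7)*(f (f t5))*(f (f v8)) - (f u7)^2*(f (f w))^2 - 2*(f w)*(f (f t5))*(f (f v6))*(f (f v8)) - 2*(f u7)*(f (f t5))*(f (f v8))*(f (f w))^2 + v8*w*(f v8)^2*(f w)^2 + v8*(f v8)^2*(f w)^2*(f (f w))^2) * hθ w + (-t5*(f (f w))^4 - w^2*(f v8)^2*(f w)^2) * hθ v8 + (-(f w)^2) * hθ v6 + (-(f (f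 v8))^2*(f (f w))^4) * hθ t5
  · (try simp only [map_add, map_mul, map_pow, map_zero]) <;> linear_combination (-u7*(f u5)*(f w) - u7^2*(f w)^2 - v6*v8*(f w)^2 - v8*w*(f u3)*(f u7) - v8*w*(f u5)*(f (f t5)) - v8*(f u3)*(f w)*(f (f v6)) - w*(f u5)*(f u7)*(f (f v8)) - (f u5)*(f w)*(f (f v6))*(f (f v8)) - t5*v8^2*w^2 - u7*v8*w*(f w)*(f (f t5)) - u7*w*(f u7)*(f w)*(f (f v8)) - u7*(f w)^2*(f (f v6))*(f (f v8)) - v8*w^2*(f u7)^2 - v8*w*(f u3)*(f (f t5))*(f (f v8)) - 2*v8*w*(f u7)*(f w)*(f (f v6)) - u7*v8*w*(f v8)*(f w)^2 - 2*v8*w^2*(f u7)*(f (f t5))*(f (f v8)) - 2*v8*w*(f w)*(f (f t5))*(f (f v6))*(f (f v8))) * h2 + (-2*v8*(f u3)*(f u7) - 2*v8*(f u5)*(f (f t5)) - 2*(f u5)*(f u7)*(f (f v8)) - 2*t5*v8^2*w - 2*u7*v8*(f w)*(f (f t5)) - 2*u7*(f u7)*(f w)*(f (f v8)) - 2*v8*w*(f u7)^2 - 2*v8*(f u3)*(f (f t5))*(f (f v8)) - 4*v8*(f u7)*(f w)*(f (f v6)) - 2*t5*v8^2*(f (f w))^2 - 4*v8*w*(f u7)*(f (f t5))*(f (f v8)) - 2*v8*(f u7)^2*(f (f w))^2 - 4*v8*(f w)*(f (f t5))*(f (f v6))*(f (f v8)) - 4*v8*(f u7)*(f (f t5))*(f (f v8))*(f (f w))^2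 + v8^2*w*(f v8)^2*(f w)^2 + v8^2*(f v8)^2*(f w)^2*(f (f w))^2) * hθ w + (-2*(f u5)*(f w) - u7*(f w)^2 - (f w)^2*(f (f u7))^2 - 2*(f w)^2*(f (f v6))*(f (f v8)) - 2*(f u7)*(f w)*(f (f v8))*(f (f w))^2 - 2*(f w)*(f (f t5))*(f (f v8))^2*(f (f w))^2) * hθ u7 + (-v8*(f (f v8))^2*(f (f w))^4 - (f (f v8))^4*(f (f w))^4) * hθ t5 + (-v6*(f w)^2 - 2*(f u5)*(f (f t5))*(f (f w))^2 - 2*u7*(f w)*(f (f t5))*(f (f w))^2 - 2*(f u7)*(f w)*(f (f v6))*(f (f w))^2 - 2*t5*v8*(f (f w))^4 - (f u7)^2*(f (f w))^4 - 2*(f w)*(f (f t5))*(f (f v6))*(f (f v8))*(f (f w))^2 - t5*(f (f v8))^2*(f (f w))^4 - 2*(f u7)*(f (f t5))*(f (f v8))*(f (f w))^4) * hθ v8 + (-v8*(f w)^2 - (f w)^2*(f (f v8))^2) * hθ v6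

set_option maxHeartbeats 4000000 in
theorem sqA2 (hθ : ∀ t, (f (f t)) ^ 2 = t) {v2 u3 v4 t5 u5 v6 u7 v8 : K}
    (h : E f 0 0 (v2) 0 (u3) (v4) (t5) (u5) (v6) 0 (u7) (v8) * E f 0 0 (v2) 0 (u3) (v4) (t5) (u5) (v6) 0 (u7) (v8) = 1) : (f t5)*(f v8) = 0 ∧ v8*(f v2) = 0 ∧ t5*(f t5) + u3*(f v8) + u7*(f v2) = 0 := by
  have h2 : (2 : K) = 0 := CharTwo.two_eq_zero
  unfold E at h
  rw [W_mul, ← W_zero] at h
  obtain ⟨h24, h25, h26, h27, h28, h29, h30, h31, h32, h33, h34, h35, h36, h37, h38, h39, h40, h41, h42, h43, h44, h45, h46, h47⟩ := W_inj h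
  try simp only [map_zero] at *
  refine ⟨?_, ?_, ?_⟩
  · linear_combination (-u7) * h2 + h36
  · linear_combination (-(f v6) - v8*(f v2)) * h2 + h38
  · linear_combination (-u5 - t5*(f t5) - u3*(f v8) - u7*(f v2) - 2*(f t5)*(f v2)*(f v8)) * h2 + h44

set_option maxHeartbeats 4000000 in
theorem stA3 (hθ : ∀ t, (f (f t)) ^ 2 = t) (u5 v6 u7 v8 y : K) :
    E f 0 0 (y) 0 0 0 0 0 0 0 0 0 * E f 0 0 0 0 0 (v8*(f y)^2) 0 (u5) (v6) 0 (u7) (v8) = E f 0 0 0 0 0 0 0 (u5 + u7*(f y)) (v6 + y*(f v8)^2) 0 (u7) (v8) * E f 0 0 (y) 0 0 0 0 0 0 0 0 0 := by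
  have h2 : (2 : K) = 0 := CharTwo.two_eq_zero
  unfold E
  rw [W_mul, W_mul]
  apply W_congr
  · (try simp only [map_add, map_mul, map_pow, map_zero]) <;> linear_combination (0 : K) * h2
  · (try simp only [map_add, map_mul, map_pow, map_zero]) <;> linear_combination (0 : K) * h2
  · (try simp only [map_add, map_mul, map_pow, map_zero]) <;> linear_combination (0 : K) * h2
  · (try simp only [map_add, map_mul, map_pow, map_zero]) <;> linear_combination (0 : K) * h2
  · (try simp only [map_add, map_mul, map_pow, map_zero]) <;> linear_combination (0 : K) * h2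
  · (try simp only [map_add, map_mul, map_pow, map_zero]) <;> linear_combination (0 : K) * h2
  · (try simp only [map_add, map_mul, map_pow, map_zero]) <;> linear_combination (0 : K) * h2
  · (try simp only [map_add, map_mul, map_pow, map_zero]) <;> linear_combination (0 : K) * h2
  · (try simp only [map_add, map_mul, map_pow, map_zero]) <;> linear_combination (0 : K) * h2
  · (try simp only [map_add, map_mul, map_pow, map_zero]) <;> linear_combination (0 : K) * h2
  · (try simp only [map_add, map_mul, map_pow, map_zero]) <;> linear_combination (0 : K) * h2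
  · (try simp only [map_add, map_mul, map_pow, map_zero]) <;> linear_combination (0 : K) * h2
  · (try simp only [map_add, map_mul, map_pow, map_zero]) <;> linear_combination (0 : K) * h2
  · (try simp only [map_add, map_mul, map_pow, map_zero]) <;> linear_combination (0 : K) * h2
  · (try simp only [map_add, map_mul, map_pow, map_zero]) <;> linear_combination (-(f y)) * hθ v8
  · (try simp only [map_add, map_mul, map_pow, map_zero]) <;> linear_combination ((f v8)) * hθ y
  · (try simp only [map_add, map_mul, map_pow, map_zero]) <;> linear_combination (0 : K) * h2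
  · (try simp only [map_add, map_mul, map_pow, map_zero]) <;> linear_combination (0 : K) * h2
  · (try simp only [map_add, map_mul, map_pow, map_zero]) <;> linear_combination (0 : K) * h2
  · (try simp only [map_add, map_mul, map_pow, map_zero]) <;> linear_combination (-y*(f v8)^2) * h2
  · (try simp only [map_add, map_mul, map_pow, map_zero]) <;> linear_combination (0 : K) * h2
  · (try simp only [map_add, map_mul, map_pow, map_zero]) <;> linear_combination (v8*(f y)^2) * h2
  · (try simp only [map_add, map_mul, map_pow, map_zero]) <;> linear_combination (0 : K) * h2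
  · (try simp only [map_add, map_mul, map_pow, map_zero]) <;> linear_combination (-y*(f u7)^2 - (f u5)*(f u7)*(f (f y))) * h2 + (-(f u7)^2) * hθ y

set_option maxHeartbeats 4000000 in
theorem stA4 (hθ : ∀ t, (f (f t)) ^ 2 = t) (u5 u7 v8 y : K) :
    E f 0 0 0 (y) 0 0 0 0 0 0 0 0 * E f 0 0 0 0 0 0 0 (u5) (v8*(f y)^2) 0 (u7) (v8) = E f 0 0 0 0 0 0 0 (u5 + y*(f v8)*(f y)) 0 0 (u7 + v8*(f y)) (v8) * E f 0 0 0 (y) 0 0 0 0 0 0 0 0 := by
  have h2 : (2 : K) = 0 := CharTwo.two_eq_zero
  unfold E
  rw [W_mul, W_mul]
  apply W_congr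
  · (try simp only [map_add, map_mul, map_pow, map_zero]) <;> linear_combination (0 : K) * h2
  · (try simp only [map_add, map_mul, map_pow, map_zero]) <;> linear_combination (0 : K) * h2
  · (try simp only [map_add, map_mul, map_pow, map_zero]) <;> linear_combination (0 : K) * h2
  · (try simp only [map_add, map_mul, map_pow, map_zero]) <;> linear_combination (0 : K) * h2
  · (try simp only [map_add, map_mul, map_pow, map_zero]) <;> linear_combination (0 : K) * h2
  · (try simp only [map_add, map_mul, map_pow, map_zero]) <;> linear_combination (0 : K) * h2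
  · (try simp only [map_add, map_mul, map_pow, map_zero]) <;> linear_combination (0 : K) * h2
  · (try simp only [map_add, map_mul, map_pow, map_zero]) <;> linear_combination (0 : K) * h2
  · (try simp only [map_add, map_mul, map_pow, map_zero]) <;> linear_combination (0 : K) * h2
  · (try simp only [map_add, map_mul, map_pow, map_zero]) <;> linear_combination (0 : K) * h2
  · (try simp only [map_add, map_mul, map_pow, map_zero]) <;> linear_combination (0 : K) * h2
  · (try simp only [map_add, map_mul, map_pow, map_zero]) <;> linear_combination (0 : K) * h2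
  · (try simp only [map_add, map_mul, map_pow, map_zero]) <;> linear_combination (0 : K) * h2
  · (try simp only [map_add, map_mul, map_pow, map_zero]) <;> linear_combination (0 : K) * h2
  · (try simp only [map_add, map_mul, map_pow, map_zero]) <;> linear_combination ((f v8)) * hθ y
  · (try simp only [map_add, map_mul, map_pow, map_zero]) <;> linear_combination (0 : K) * h2
  · (try simp only [map_add, map_mul, map_pow, map_zero]) <;> linear_combination (0 : K) * h2
  · (try simp only [map_add, map_mul, map_pow, map_zero]) <;> linear_combination (0 : K) * h2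
  · (try simp only [map_add, map_mul, map_pow, map_zero]) <;> linear_combination (-y*(f v8)^2 - (f u7)*(f v8)*(f (f y))) * h2 + (-(f v8)^2) * hθ y
  · (try simp only [map_add, map_mul, map_pow, map_zero]) <;> linear_combination (v8*(f y)^2) * h2
  · (try simp only [map_add, map_mul, map_pow, map_zero]) <;> linear_combination (-y*(f v8)*(f y)) * h2
  · (try simp only [map_add, map_mul, map_pow, map_zero]) <;> linear_combination (0 : K) * h2
  · (try simp only [map_add, map_mul, map_pow, map_zero]) <;> linear_combination (0 : K) * h2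
  · (try simp only [map_add, map_mul, map_pow, map_zero]) <;> linear_combination (-(f u5)*(f y)*(f (f v8))*(f (f y))) * h2 + (-(f y)^2*(f (f y))^2) * hθ v8 + (-v8*(f y)^2) * hθ y

set_option maxHeartbeats 4000000 in
theorem stA5 (hθ : ∀ t, (f (f t)) ^ 2 = t) (u5 v8 z : K) :
    E f 0 0 0 0 0 0 (z) 0 0 0 0 0 * E f 0 0 0 0 0 0 0 (u5) 0 0 ((f v8)*(f z)) (v8) = E f 0 0 0 0 0 0 0 (u5) 0 0 0 (v8) * E f 0 0 0 0 0 0 (z) 0 0 0 0 0 := by
  have h2 : (2 : K) = 0 := CharTwo.two_eq_zero
  unfold E
  rw [W_mul, W_mul]
  apply W_congr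
  · (try simp only [map_add, map_mul, map_pow, map_zero]) <;> linear_combination (0 : K) * h2
  · (try simp only [map_add, map_mul, map_pow, map_zero]) <;> linear_combination (0 : K) * h2
  · (try simp only [map_add, map_mul, map_pow, map_zero]) <;> linear_combination (0 : K) * h2
  · (try simp only [map_add, map_mul, map_pow, map_zero]) <;> linear_combination (0 : K) * h2
  · (try simp only [map_add, map_mul, map_pow, map_zero]) <;> linear_combination (0 : K) * h2
  · (try simp only [map_add, map_mul, map_pow, map_zero]) <;> linear_combination (0 : K) * h2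
  · (try simp only [map_add, map_mul, map_pow, map_zero]) <;> linear_combination (0 : K) * h2
  · (try simp only [map_add, map_mul, map_pow, map_zero]) <;> linear_combination (0 : K) * h2
  · (try simp only [map_add, map_mul, map_pow, map_zero]) <;> linear_combination (0 : K) * h2
  · (try simp only [map_add, map_mul, map_pow, map_zero]) <;> linear_combination (0 : K) * h2
  · (try simp only [map_add, map_mul, map_pow, map_zero]) <;> linear_combination (0 : K) * h2
  · (try simp only [map_add, map_mul, map_pow, map_zero]) <;> linear_combination (0 : K) * h2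
  · (try simp only [map_add, map_mul, map_pow, map_zero]) <;> linear_combination (0 : K) * h2
  · (try simp only [map_add, map_mul, map_pow, map_zero]) <;> linear_combination (0 : K) * h2
  · (try simp only [map_add, map_mul, map_pow, map_zero]) <;> linear_combination (0 : K) * h2
  · (try simp only [map_add, map_mul, map_pow, map_zero]) <;> linear_combination (0 : K) * h2
  · (try simp only [map_add, map_mul, map_pow, map_zero]) <;> linear_combination (0 : K) * h2
  · (try simp only [map_add, map_mul, map_pow, map_zero]) <;> linear_combination (0 : K) * h2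
  · (try simp only [map_add, map_mul, map_pow, map_zero]) <;> linear_combination (v8*z) * h2 + ((f (f z))^2) * hθ v8 + (v8) * hθ z
  · (try simp only [map_add, map_mul, map_pow, map_zero]) <;> linear_combination (0 : K) * h2
  · (try simp only [map_add, map_mul, map_pow, map_zero]) <;> linear_combination (0 : K) * h2
  · (try simp only [map_add, map_mul, map_pow, map_zero]) <;> linear_combination (0 : K) * h2
  · (try simp only [map_add, map_mul, map_pow, map_zero]) <;> linear_combination (0 : K) * h2
  · (try simp only [map_add, map_mul, map_pow, map_zero]) <;> linear_combination (0 : K) * h2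

set_option maxHeartbeats 4000000 in
theorem stA6 (hθ : ∀ t, (f (f t)) ^ 2 = t) (v8 w : K) :
    E f 0 0 0 0 (w) 0 0 0 0 0 0 0 * E f 0 0 0 0 0 0 0 (w*(f v8)) 0 0 0 (v8) = E f 0 0 0 0 0 0 0 0 0 0 0 (v8) * E f 0 0 0 0 (w) 0 0 0 0 0 0 0 := by
  have h2 : (2 : K) = 0 := CharTwo.two_eq_zero
  unfold E
  rw [W_mul, W_mul]
  apply W_congr
  · (try simp only [map_add, map_mul, map_pow, map_zero]) <;> linear_combination (0 : K) * h2
  · (try simp only [map_add, map_mul, map_pow, map_zero]) <;> linear_combination (0 : K) * h2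
  · (try simp only [map_add, map_mul, map_pow, map_zero]) <;> linear_combination (0 : K) * h2
  · (try simp only [map_add, map_mul, map_pow, map_zero]) <;> linear_combination (0 : K) * h2
  · (try simp only [map_add, map_mul, map_pow, map_zero]) <;> linear_combination (0 : K) * h2
  · (try simp only [map_add, map_mul, map_pow, map_zero]) <;> linear_combination (0 : K) * h2
  · (try simp only [map_add, map_mul, map_pow, map_zero]) <;> linear_combination (0 : K) * h2
  · (try simp only [map_add, map_mul, map_pow, map_zero]) <;> linear_combination (0 : K) * h2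
  · (try simp only [map_add, map_mul, map_pow, map_zero]) <;> linear_combination (0 : K) * h2
  · (try simp only [map_add, map_mul, map_pow, map_zero]) <;> linear_combination (0 : K) * h2
  · (try simp only [map_add, map_mul, map_pow, map_zero]) <;> linear_combination (0 : K) * h2
  · (try simp only [map_add, map_mul, map_pow, map_zero]) <;> linear_combination (0 : K) * h2
  · (try simp only [map_add, map_mul, map_pow, map_zero]) <;> linear_combination (0 : K) * h2
  · (try simp only [map_add, map_mul, map_pow, map_zero]) <;> linear_combination (0 : K) * h2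
  · (try simp only [map_add, map_mul, map_pow, map_zero]) <;> linear_combination (0 : K) * h2
  · (try simp only [map_add, map_mul, map_pow, map_zero]) <;> linear_combination (0 : K) * h2
  · (try simp only [map_add, map_mul, map_pow, map_zero]) <;> linear_combination (0 : K) * h2
  · (try simp only [map_add, map_mul, map_pow, map_zero]) <;> linear_combination (0 : K) * h2
  · (try simp only [map_add, map_mul, map_pow, map_zero]) <;> linear_combination (0 : K) * h2
  · (try simp only [map_add, map_mul, map_pow, map_zero]) <;> linear_combination (0 : K) * h2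
  · (try simp only [map_add, map_mul, map_pow, map_zero]) <;> linear_combination (w*(f v8)) * h2
  · (try simp only [map_add, map_mul, map_pow, map_zero]) <;> linear_combination (0 : K) * h2
  · (try simp only [map_add, map_mul, map_pow, map_zero]) <;> linear_combination (0 : K) * h2
  · (try simp only [map_add, map_mul, map_pow, map_zero]) <;> linear_combination (v8*(f w)^2) * h2 + ((f w)^2) * hθ v8

set_option maxHeartbeats 4000000 in
theorem stB1 (hθ : ∀ t, (f (f t)) ^ 2 = t) (u1 v2 u3 v4 t5 u5 v6 u7 y : K) :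
    E f 0 0 0 0 0 0 0 0 0 0 0 (y) * E f 0 (u1) (v2) (y*(f u1)^2) (u3) (v4) (t5) (u5) (v6) 0 (u7) 0 = E f 0 (u1) (v2 + u1^2*y) 0 (u3 + u1*y*(f v2)) (v4 + y*(f v2)^2) (t5 + (f u1)^2*(f y)^2) (u5 + u3*(f y) + t5*u1*y) (v6 + v2*(f y)^2) 0 (u7 + (f t5)*(f y)) 0 * E f 0 0 0 0 0 0 0 0 0 0 0 (y) := by
  have h2 : (2 : K) = 0 := CharTwo.two_eq_zero
  unfold E
  rw [W_mul, W_mul]
  apply W_congr
  · (try simp only [map_add, map_mul, map_pow, map_zero]) <;> linear_combination (0 : K) * h2
  · (try simp only [map_add, map_mul, map_pow, map_zero]) <;> linear_combination (0 : K) * h2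
  · (try simp only [map_add, map_mul, map_pow, map_zero]) <;> linear_combination (0 : K) * h2
  · (try simp only [map_add, map_mul, map_pow, map_zero]) <;> linear_combination (0 : K) * h2
  · (try simp only [map_add, map_mul, map_pow, map_zero]) <;> linear_combination (0 : K) * h2
  · (try simp only [map_add, map_mul, map_pow, map_zero]) <;> linear_combination (-u1*y) * h2 + (-(f (f y))^2) * hθ u1 + (-u1) * hθ y
  · (try simp only [map_add, map_mul, map_pow, map_zero]) <;> linear_combination (0 : K) * h2
  · (try simp only [map_add, map_mul, map_pow, map_zero]) <;> linear_combination (0 : K) * h2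
  · (try simp only [map_add, map_mul, map_pow, map_zero]) <;> linear_combination (-u1^2*y) * h2
  · (try simp only [map_add, map_mul, map_pow, map_zero]) <;> linear_combination (0 : K) * h2
  · (try simp only [map_add, map_mul, map_pow, map_zero]) <;> linear_combination (0 : K) * h2
  · (try simp only [map_add, map_mul, map_pow, map_zero]) <;> linear_combination (u1*(f y)) * h2 + ((f y)) * hθ u1
  · (try simp only [map_add, map_mul, map_pow, map_zero]) <;> linear_combination (0 : K) * h2
  · (try simp only [map_add, map_mul, map_pow, map_zero]) <;> linear_combination (0 : K) * h2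
  · (try simp only [map_add, map_mul, map_pow, map_zero]) <;> linear_combination (-y*(f v2)) * h2 + (-(f v2)) * hθ y
  · (try simp only [map_add, map_mul, map_pow, map_zero]) <;> linear_combination (u1*(f t5)*(f y)) * h2 + ((f t5)*(f y)) * hθ u1 + (-(f y)) * hθ v2
  · (try simp only [map_add, map_mul, map_pow, map_zero]) <;> linear_combination (-u1*y*(f v2)) * h2 + (-(f v2)*(f (f y))^2 - (f u1)^2*(f y)*(f (f y))^2) * hθ u1 + (-u1*(f v2) - u1*(f u1)^2*(f y)) * hθ y
  · (try simp only [map_add, map_mul, map_pow, map_zero]) <;> linear_combination (0 : K) * h2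
  · (try simp only [map_add, map_mul, map_pow, map_zero]) <;> linear_combination (-t5*y - (f u7)*(f (f t5))*(f (f y))) * h2 + (-(f (f y))^2) * hθ t5 + (-t5) * hθ y
  · (try simp only [map_add, map_mul, map_pow, map_zero]) <;> linear_combination (0 : K) * h2
  · (try simp only [map_add, map_mul, map_pow, map_zero]) <;> linear_combination (-u3*(f y) - t5*u1*y - (f t5)*(f v2)*(f y) - u1*y*(f v2)*(f y) - (f t5)*(f u1)^2*(f y)^2) * h2 + (-t5*(f (f y))^2 - (f v2)*(f y)*(f (f y))^2 + y*(f u1)^2*(f y)^2 - 2*(f u1)^2*(f y)^2*(f (f y))^2) * hθ u1 + (-t5*u1 - u1*(f v2)*(f y) - 2*u1*(f u1)^2*(f y)^2) * hθ y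
  · (try simp only [map_add, map_mul, map_pow, map_zero]) <;> linear_combination (-y*(f v2)^2 - y*(f u1)^2*(f v2)*(f y)) * h2
  · (try simp only [map_add, map_mul, map_pow, map_zero]) <;> linear_combination (-(f u1)*(f u3)*(f y)*(f (f v2)) + u1^2*y*(f u1)^2*(f y)^2) * h2 + (u1*y*(f u1)^2*(f y)^2 + y*(f u1)^2*(f y)^2*(f (f u1))^2) * hθ u1 + (-(f u1)^2*(f y)^2) * hθ v2
  · (try simp only [map_add, map_mul, map_pow, map_zero]) <;> linear_combination (-y*(f u3)^2 - (f u3)*(f u5)*(f (f y)) - (f t5)*(f u1)*(f u5)*(f y) - y*(f u1)*(f u3)*(f y)*(f (f v2)) - (f t5)*(f u1)*(f u3)*(f y)*(f (f y))) * h2 + (-y*(f u1)^2*(f y)^2) * hθ v2 + (-(f u3)^2) * hθ y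

set_option maxHeartbeats 4000000 in
theorem sqB1 (hθ : ∀ t, (f (f t)) ^ 2 = t) {u1 v2 u3 v4 t5 u5 v6 u7 : K}
    (h : E f 0 (u1) (v2) 0 (u3) (v4) (t5) (u5) (v6) 0 (u7) 0 * E f 0 (u1) (v2) 0 (u3) (v4) (t5) (u5) (v6) 0 (u7) 0 = 1) : u1*u7 = 0 ∧ t5*(f t5) + u7*(f v2) + u1*(f u7)^2 = 0 ∧ u1*(f v6) + (f t5)*(f v2) + u7*(f u1)^2 = 0 := by
  have h2 : (2 : K) = 0 := CharTwo.two_eq_zero
  unfold E at h
  rw [W_mul, ← W_zero] at h
  obtain ⟨h24, h25, h26, h27, h28, h29, h30, h31, h32, h33, h34, h35, h36, h37, h38, h39, h40, h41, h42, h43, h44, h45, h46, h47⟩ := W_inj h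
  try simp only [map_zero] at *
  refine ⟨?_, ?_, ?_⟩
  · linear_combination (-(f v4)) * h2 + h39
  · linear_combination (-u5 - t5*(f t5) - u7*(f v2)) * h2 + h44
  · linear_combination (-u3 - (f t5)*(f v2)) * h2 + h40

set_option maxHeartbeats 4000000 in
theorem stB2 (hθ : ∀ t, (f (f t)) ^ 2 = t) (u1 u3 v4 u5 y : K) :
    E f 0 0 0 0 0 0 0 0 0 (y) 0 0 * E f 0 (u1) (y*(f u1)^2) 0 (u3) (v4) 0 (u5) 0 0 0 0 = E f 0 (u1) 0 0 (u3 + y*(f u1)^2*(f y)) (v4) 0 (u5 + (f v4)*(f y) + u1*y*(f y)^2) 0 0 0 0 * E f 0 0 0 0 0 0 0 0 0 (y) 0 0 := by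
  have h2 : (2 : K) = 0 := CharTwo.two_eq_zero
  unfold E
  rw [W_mul, W_mul]
  apply W_congr
  · (try simp only [map_add, map_mul, map_pow, map_zero]) <;> linear_combination (0 : K) * h2
  · (try simp only [map_add, map_mul, map_pow, map_zero]) <;> linear_combination (0 : K) * h2
  · (try simp only [map_add, map_mul, map_pow, map_zero]) <;> linear_combination (0 : K) * h2
  · (try simp only [map_add, map_mul, map_pow, map_zero]) <;> linear_combination (0 : K) * h2
  · (try simp only [map_add, map_mul, map_pow, map_zero]) <;> linear_combination (0 : K) * h2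
  · (try simp only [map_add, map_mul, map_pow, map_zero]) <;> linear_combination (0 : K) * h2
  · (try simp only [map_add, map_mul, map_pow, map_zero]) <;> linear_combination (0 : K) * h2
  · (try simp only [map_add, map_mul, map_pow, map_zero]) <;> linear_combination (0 : K) * h2
  · (try simp only [map_add, map_mul, map_pow, map_zero]) <;> linear_combination (0 : K) * h2
  · (try simp only [map_add, map_mul, map_pow, map_zero]) <;> linear_combination (0 : K) * h2
  · (try simp only [map_add, map_mul, map_pow, map_zero]) <;> linear_combination (0 : K) * h2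
  · (try simp only [map_add, map_mul, map_pow, map_zero]) <;> linear_combination (0 : K) * h2
  · (try simp only [map_add, map_mul, map_pow, map_zero]) <;> linear_combination (0 : K) * h2
  · (try simp only [map_add, map_mul, map_pow, map_zero]) <;> linear_combination (u1*(f y)) * h2 + ((f y)) * hθ u1
  · (try simp only [map_add, map_mul, map_pow, map_zero]) <;> linear_combination (0 : K) * h2
  · (try simp only [map_add, map_mul, map_pow, map_zero]) <;> linear_combination (0 : K) * h2
  · (try simp only [map_add, map_mul, map_pow, map_zero]) <;> linear_combination (0 : K) * h2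
  · (try simp only [map_add, map_mul, map_pow, map_zero]) <;> linear_combination (0 : K) * h2
  · (try simp only [map_add, map_mul, map_pow, map_zero]) <;> linear_combination (0 : K) * h2
  · (try simp only [map_add, map_mul, map_pow, map_zero]) <;> linear_combination (0 : K) * h2
  · (try simp only [map_add, map_mul, map_pow, map_zero]) <;> linear_combination (-(f v4)*(f y)) * h2
  · (try simp only [map_add, map_mul, map_pow, map_zero]) <;> linear_combination (y*(f u1)^2*(f y)^2) * h2
  · (try simp only [map_add, map_mul, map_pow, map_zero]) <;> linear_combination (-u1*(f u3)*(f y)*(f (f y))) * h2 + (-2*(f u3)*(f y)*(f (f y)) - u1*(f y)^2*(f (f y))^2 - (f y)^2*(f (f u1))^2*(f (f y))^2) * hθ u1 + (-u1^2*(f y)^2) * hθ y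
  · (try simp only [map_add, map_mul, map_pow, map_zero]) <;> linear_combination (-v4*y - (f u5)*(f (f v4))*(f (f y)) - y*(f u1)*(f u5)*(f y) - y*(f u1)*(f y)*(f (f v4))*(f (f y))) * h2 + (-v4 - 2*(f u1)*(f u5)*(f y) - 2*(f u1)*(f y)*(f (f v4))*(f (f y)) - y*(f u1)^2*(f y)^2 - (f u1)^2*(f y)^2*(f (f y))^2) * hθ y + (-(f (f y))^2) * hθ v4

set_option maxHeartbeats 4000000 in
theorem stB3 (hθ : ∀ t, (f (f t)) ^ 2 = t) (u1 u3 u5 w : K) :
    E f 0 0 0 0 0 0 0 0 0 0 (w) 0 * E f 0 (u1) 0 0 (u3) ((f u1)^2*(f w)^2) 0 (u5) 0 0 0 0 = E f 0 (u1) 0 0 (u3 + w*(f u1)^2) 0 0 (u5 + u1*(f w)^2) 0 0 0 0 * E f 0 0 0 0 0 0 0 0 0 0 (w) 0 := by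
  have h2 : (2 : K) = 0 := CharTwo.two_eq_zero
  unfold E
  rw [W_mul, W_mul]
  apply W_congr
  · (try simp only [map_add, map_mul, map_pow, map_zero]) <;> linear_combination (0 : K) * h2
  · (try simp only [map_add, map_mul, map_pow, map_zero]) <;> linear_combination (0 : K) * h2
  · (try simp only [map_add, map_mul, map_pow, map_zero]) <;> linear_combination (0 : K) * h2
  · (try simp only [map_add, map_mul, map_pow, map_zero]) <;> linear_combination (0 : K) * h2
  · (try simp only [map_add, map_mul, map_pow, map_zero]) <;> linear_combination (0 : K) * h2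
  · (try simp only [map_add, map_mul, map_pow, map_zero]) <;> linear_combination (0 : K) * h2
  · (try simp only [map_add, map_mul, map_pow, map_zero]) <;> linear_combination (0 : K) * h2
  · (try simp only [map_add, map_mul, map_pow, map_zero]) <;> linear_combination (0 : K) * h2
  · (try simp only [map_add, map_mul, map_pow, map_zero]) <;> linear_combination (0 : K) * h2
  · (try simp only [map_add, map_mul, map_pow, map_zero]) <;> linear_combination (0 : K) * h2
  · (try simp only [map_add, map_mul, map_pow, map_zero]) <;> linear_combination (0 : K) * h2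
  · (try simp only [map_add, map_mul, map_pow, map_zero]) <;> linear_combination (0 : K) * h2
  · (try simp only [map_add, map_mul, map_pow, map_zero]) <;> linear_combination (0 : K) * h2
  · (try simp only [map_add, map_mul, map_pow, map_zero]) <;> linear_combination (0 : K) * h2
  · (try simp only [map_add, map_mul, map_pow, map_zero]) <;> linear_combination (0 : K) * h2
  · (try simp only [map_add, map_mul, map_pow, map_zero]) <;> linear_combination (u1*w) * h2 + ((f (f w))^2) * hθ u1 + (u1) * hθ w
  · (try simp only [map_add, map_mul, map_pow, map_zero]) <;> linear_combination (0 : K) * h2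
  · (try simp only [map_add, map_mul, map_pow, map_zero]) <;> linear_combination (0 : K) * h2
  · (try simp only [map_add, map_mul, map_pow, map_zero]) <;> linear_combination (0 : K) * h2
  · (try simp only [map_add, map_mul, map_pow, map_zero]) <;> linear_combination (0 : K) * h2
  · (try simp only [map_add, map_mul, map_pow, map_zero]) <;> linear_combination (0 : K) * h2
  · (try simp only [map_add, map_mul, map_pow, map_zero]) <;> linear_combination ((f u1)^2*(f w)^2) * h2
  · (try simp only [map_add, map_mul, map_pow, map_zero]) <;> linear_combination (-u1*(f u3)*(f w)) * h2 + (-2*(f u3)*(f w) - u1*(f w)^2 - (f w)^2*(f (f u1))^2) * hθ u1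
  · (try simp only [map_add, map_mul, map_pow, map_zero]) <;> linear_combination (-w*(f u1)*(f u5)) * h2 + (-2*(f u1)*(f u5) - w*(f u1)^2 - (f u1)^2*(f (f w))^2) * hθ w

set_option maxHeartbeats 4000000 in
theorem stB4 (hθ : ∀ t, (f (f t)) ^ 2 = t) (u1 u5 y : K) :
    E f 0 0 0 0 0 0 0 0 (y) 0 0 0 * E f 0 (u1) 0 0 (u1*(f y)) 0 0 (u5) 0 0 0 0 = E f 0 (u1) 0 0 0 0 0 (u5) 0 0 0 0 * E f 0 0 0 0 0 0 0 0 (y) 0 0 0 := by
  have h2 : (2 : K) = 0 := CharTwo.two_eq_zero
  unfold E
  rw [W_mul, W_mul]
  apply W_congr
  · (try simp only [map_add, map_mul, map_pow, map_zero]) <;> linear_combination (0 : K) * h2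
  · (try simp only [map_add, map_mul, map_pow, map_zero]) <;> linear_combination (0 : K) * h2
  · (try simp only [map_add, map_mul, map_pow, map_zero]) <;> linear_combination (0 : K) * h2
  · (try simp only [map_add, map_mul, map_pow, map_zero]) <;> linear_combination (0 : K) * h2
  · (try simp only [map_add, map_mul, map_pow, map_zero]) <;> linear_combination (0 : K) * h2
  · (try simp only [map_add, map_mul, map_pow, map_zero]) <;> linear_combination (0 : K) * h2
  · (try simp only [map_add, map_mul, map_pow, map_zero]) <;> linear_combination (0 : K) * h2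
  · (try simp only [map_add, map_mul, map_pow, map_zero]) <;> linear_combination (0 : K) * h2
  · (try simp only [map_add, map_mul, map_pow, map_zero]) <;> linear_combination (0 : K) * h2
  · (try simp only [map_add, map_mul, map_pow, map_zero]) <;> linear_combination (0 : K) * h2
  · (try simp only [map_add, map_mul, map_pow, map_zero]) <;> linear_combination (0 : K) * h2
  · (try simp only [map_add, map_mul, map_pow, map_zero]) <;> linear_combination (0 : K) * h2
  · (try simp only [map_add, map_mul, map_pow, map_zero]) <;> linear_combination (0 : K) * h2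
  · (try simp only [map_add, map_mul, map_pow, map_zero]) <;> linear_combination (0 : K) * h2
  · (try simp only [map_add, map_mul, map_pow, map_zero]) <;> linear_combination (0 : K) * h2
  · (try simp only [map_add, map_mul, map_pow, map_zero]) <;> linear_combination (0 : K) * h2
  · (try simp only [map_add, map_mul, map_pow, map_zero]) <;> linear_combination (u1*(f y)) * h2
  · (try simp only [map_add, map_mul, map_pow, map_zero]) <;> linear_combination (0 : K) * h2
  · (try simp only [map_add, map_mul, map_pow, map_zero]) <;> linear_combination (0 : K) * h2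
  · (try simp only [map_add, map_mul, map_pow, map_zero]) <;> linear_combination (0 : K) * h2
  · (try simp only [map_add, map_mul, map_pow, map_zero]) <;> linear_combination (0 : K) * h2
  · (try simp only [map_add, map_mul, map_pow, map_zero]) <;> linear_combination (0 : K) * h2
  · (try simp only [map_add, map_mul, map_pow, map_zero]) <;> linear_combination (y*(f u1)^2) * h2 + ((f u1)^2) * hθ y
  · (try simp only [map_add, map_mul, map_pow, map_zero]) <;> linear_combination (0 : K) * h2

set_option maxHeartbeats 4000000 in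
theorem npB5 (hθ : ∀ t, (f (f t)) ^ 2 = t) (u1 u5 : K) :
    nP * E f 0 (u1) 0 0 0 0 0 (u5) 0 0 0 0 * nP⁻¹ = E f 0 0 0 0 (u5) 0 0 0 0 0 (u1) 0 := by
  have h2 : (2 : K) = 0 := CharTwo.two_eq_zero
  have hE : E f 0 (u1) 0 0 0 0 0 (u5) 0 0 0 0 = W 0 (0) (0) (0) (u1) (0) ((f u1)^2) (0) (0) 0 (0) (0) (0) (0) (0) (0) (0) (0) (0) (0) (u5) (0) (0) ((f u5)^2) := by
    unfold E
    apply W_congr <;> (try simp only [map_zero]) <;> ring
  rw [hE, nP_W]
  unfold E
  apply W_congr
  · (try simp only [map_add, map_mul, map_pow, map_zero]) <;> linear_combination (0 : K) * h2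
  · (try simp only [map_add, map_mul, map_pow, map_zero]) <;> linear_combination (0 : K) * h2
  · (try simp only [map_add, map_mul, map_pow, map_zero]) <;> linear_combination (0 : K) * h2
  · (try simp only [map_add, map_mul, map_pow, map_zero]) <;> linear_combination (0 : K) * h2
  · (try simp only [map_add, map_mul, map_pow, map_zero]) <;> linear_combination (0 : K) * h2
  · (try simp only [map_add, map_mul, map_pow, map_zero]) <;> linear_combination (0 : K) * h2
  · (try simp only [map_add, map_mul, map_pow, map_zero]) <;> linear_combination (0 : K) * h2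
  · (try simp only [map_add, map_mul, map_pow, map_zero]) <;> linear_combination (0 : K) * h2
  · (try simp only [map_add, map_mul, map_pow, map_zero]) <;> linear_combination (0 : K) * h2
  · (try simp only [map_add, map_mul, map_pow, map_zero]) <;> linear_combination (0 : K) * h2
  · (try simp only [map_add, map_mul, map_pow, map_zero]) <;> linear_combination (0 : K) * h2
  · (try simp only [map_add, map_mul, map_pow, map_zero]) <;> linear_combination (0 : K) * h2
  · (try simp only [map_add, map_mul, map_pow, map_zero]) <;> linear_combination (0 : K) * h2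
  · (try simp only [map_add, map_mul, map_pow, map_zero]) <;> linear_combination (0 : K) * h2
  · (try simp only [map_add, map_mul, map_pow, map_zero]) <;> linear_combination (0 : K) * h2
  · (try simp only [map_add, map_mul, map_pow, map_zero]) <;> linear_combination (0 : K) * h2
  · (try simp only [map_add, map_mul, map_pow, map_zero]) <;> linear_combination (0 : K) * h2
  · (try simp only [map_add, map_mul, map_pow, map_zero]) <;> linear_combination (0 : K) * h2
  · (try simp only [map_add, map_mul, map_pow, map_zero]) <;> linear_combination (0 : K) * h2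
  · (try simp only [map_add, map_mul, map_pow, map_zero]) <;> linear_combination (0 : K) * h2
  · (try simp only [map_add, map_mul, map_pow, map_zero]) <;> linear_combination (0 : K) * h2
  · (try simp only [map_add, map_mul, map_pow, map_zero]) <;> linear_combination (0 : K) * h2
  · (try simp only [map_add, map_mul, map_pow, map_zero]) <;> linear_combination (0 : K) * h2
  · (try simp only [map_add, map_mul, map_pow, map_zero]) <;> linear_combination (0 : K) * h2

set_option maxHeartbeats 4000000 in
theorem stC1 (hθ : ∀ t, (f (f t)) ^ 2 = t) (u7 w : K) :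
    E f 0 (w) 0 0 0 0 0 0 0 0 0 0 * E f 0 0 0 0 (u7*(f w)^2) 0 0 0 0 0 (u7) 0 = E f 0 0 0 0 0 ((f u7)^2*(f w)^2) 0 (w*(f u7)^2) 0 0 (u7) 0 * E f 0 (w) 0 0 0 0 0 0 0 0 0 0 := by
  have h2 : (2 : K) = 0 := CharTwo.two_eq_zero
  unfold E
  rw [W_mul, W_mul]
  apply W_congr
  · (try simp only [map_add, map_mul, map_pow, map_zero]) <;> linear_combination (0 : K) * h2
  · (try simp only [map_add, map_mul, map_pow, map_zero]) <;> linear_combination (0 : K) * h2
  · (try simp only [map_add, map_mul, map_pow, map_zero]) <;> linear_combination (0 : K) * h2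
  · (try simp only [map_add, map_mul, map_pow, map_zero]) <;> linear_combination (0 : K) * h2
  · (try simp only [map_add, map_mul, map_pow, map_zero]) <;> linear_combination (0 : K) * h2
  · (try simp only [map_add, map_mul, map_pow, map_zero]) <;> linear_combination (0 : K) * h2
  · (try simp only [map_add, map_mul, map_pow, map_zero]) <;> linear_combination (0 : K) * h2
  · (try simp only [map_add, map_mul, map_pow, map_zero]) <;> linear_combination (0 : K) * h2
  · (try simp only [map_add, map_mul, map_pow, map_zero]) <;> linear_combination (0 : K) * h2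
  · (try simp only [map_add, map_mul, map_pow, map_zero]) <;> linear_combination (0 : K) * h2
  · (try simp only [map_add, map_mul, map_pow, map_zero]) <;> linear_combination (0 : K) * h2
  · (try simp only [map_add, map_mul, map_pow, map_zero]) <;> linear_combination (0 : K) * h2
  · (try simp only [map_add, map_mul, map_pow, map_zero]) <;> linear_combination (0 : K) * h2
  · (try simp only [map_add, map_mul, map_pow, map_zero]) <;> linear_combination (0 : K) * h2
  · (try simp only [map_add, map_mul, map_pow, map_zero]) <;> linear_combination (0 : K) * h2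
  · (try simp only [map_add, map_mul, map_pow, map_zero]) <;> linear_combination (-u7*w) * h2 + (-(f (f w))^2) * hθ u7 + (-u7) * hθ w
  · (try simp only [map_add, map_mul, map_pow, map_zero]) <;> linear_combination (0 : K) * h2
  · (try simp only [map_add, map_mul, map_pow, map_zero]) <;> linear_combination (0 : K) * h2
  · (try simp only [map_add, map_mul, map_pow, map_zero]) <;> linear_combination (0 : K) * h2
  · (try simp only [map_add, map_mul, map_pow, map_zero]) <;> linear_combination (0 : K) * h2
  · (try simp only [map_add, map_mul, map_pow, map_zero]) <;> linear_combination (-w*(f u7)^2) * h2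
  · (try simp only [map_add, map_mul, map_pow, map_zero]) <;> linear_combination (-(f u7)^2*(f w)^2) * h2
  · (try simp only [map_add, map_mul, map_pow, map_zero]) <;> linear_combination (w*(f u7)^2 + (f u7)^2*(f (f w))^2) * hθ w
  · (try simp only [map_add, map_mul, map_pow, map_zero]) <;> linear_combination (-u7^2*(f w)^2) * h2 + (-u7*(f w)^2 - (f w)^2*(f (f u7))^2) * hθ u7

set_option maxHeartbeats 4000000 in
theorem stC2 (hθ : ∀ t, (f (f t)) ^ 2 = t) (v4 u7 y : K) :
    E f 0 0 (y) 0 0 0 0 0 0 0 0 0 * E f 0 0 0 0 0 (v4) 0 (u7*(f y)) 0 0 (u7) 0 = E f 0 0 0 0 0 (v4) 0 0 0 0 (u7) 0 * E f 0 0 (y) 0 0 0 0 0 0 0 0 0 := by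
  have h2 : (2 : K) = 0 := CharTwo.two_eq_zero
  unfold E
  rw [W_mul, W_mul]
  apply W_congr
  · (try simp only [map_add, map_mul, map_pow, map_zero]) <;> linear_combination (0 : K) * h2
  · (try simp only [map_add, map_mul, map_pow, map_zero]) <;> linear_combination (0 : K) * h2
  · (try simp only [map_add, map_mul, map_pow, map_zero]) <;> linear_combination (0 : K) * h2
  · (try simp only [map_add, map_mul, map_pow, map_zero]) <;> linear_combination (0 : K) * h2
  · (try simp only [map_add, map_mul, map_pow, map_zero]) <;> linear_combination (0 : K) * h2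
  · (try simp only [map_add, map_mul, map_pow, map_zero]) <;> linear_combination (0 : K) * h2
  · (try simp only [map_add, map_mul, map_pow, map_zero]) <;> linear_combination (0 : K) * h2
  · (try simp only [map_add, map_mul, map_pow, map_zero]) <;> linear_combination (0 : K) * h2
  · (try simp only [map_add, map_mul, map_pow, map_zero]) <;> linear_combination (0 : K) * h2
  · (try simp only [map_add, map_mul, map_pow, map_zero]) <;> linear_combination (0 : K) * h2
  · (try simp only [map_add, map_mul, map_pow, map_zero]) <;> linear_combination (0 : K) * h2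
  · (try simp only [map_add, map_mul, map_pow, map_zero]) <;> linear_combination (0 : K) * h2
  · (try simp only [map_add, map_mul, map_pow, map_zero]) <;> linear_combination (0 : K) * h2
  · (try simp only [map_add, map_mul, map_pow, map_zero]) <;> linear_combination (0 : K) * h2
  · (try simp only [map_add, map_mul, map_pow, map_zero]) <;> linear_combination (0 : K) * h2
  · (try simp only [map_add, map_mul, map_pow, map_zero]) <;> linear_combination (0 : K) * h2
  · (try simp only [map_add, map_mul, map_pow, map_zero]) <;> linear_combination (0 : K) * h2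
  · (try simp only [map_add, map_mul, map_pow, map_zero]) <;> linear_combination (0 : K) * h2
  · (try simp only [map_add, map_mul, map_pow, map_zero]) <;> linear_combination (0 : K) * h2
  · (try simp only [map_add, map_mul, map_pow, map_zero]) <;> linear_combination (0 : K) * h2
  · (try simp only [map_add, map_mul, map_pow, map_zero]) <;> linear_combination (u7*(f y)) * h2
  · (try simp only [map_add, map_mul, map_pow, map_zero]) <;> linear_combination (0 : K) * h2
  · (try simp only [map_add, map_mul, map_pow, map_zero]) <;> linear_combination (0 : K) * h2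
  · (try simp only [map_add, map_mul, map_pow, map_zero]) <;> linear_combination ((f u7)^2) * hθ y

set_option maxHeartbeats 4000000 in
theorem ncC3 (hθ : ∀ t, (f (f t)) ^ 2 = t) (v4 u7 : K) :
    nC * E f 0 0 0 0 0 (v4) 0 0 0 0 (u7) 0 * nC⁻¹ = E f 0 0 0 0 (u7) 0 0 0 (v4) 0 0 0 := by
  have h2 : (2 : K) = 0 := CharTwo.two_eq_zero
  have hE : E f 0 0 0 0 0 (v4) 0 0 0 0 (u7) 0 = W (0) 0 (0) 0 0 (0) 0 (0) (0) (0) (0) (0) (u7) (0) (0) ((f v4)) (0) (0) ((f u7)^2) (0) (0) (v4) (0) (0) := by
    unfold E
    apply W_congr <;> (try simp only [map_zero]) <;> ring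
  rw [hE, nC_W]
  unfold E
  apply W_congr
  · (try simp only [map_add, map_mul, map_pow, map_zero]) <;> linear_combination (0 : K) * h2
  · (try simp only [map_add, map_mul, map_pow, map_zero]) <;> linear_combination (0 : K) * h2
  · (try simp only [map_add, map_mul, map_pow, map_zero]) <;> linear_combination (0 : K) * h2
  · (try simp only [map_add, map_mul, map_pow, map_zero]) <;> linear_combination (0 : K) * h2
  · (try simp only [map_add, map_mul, map_pow, map_zero]) <;> linear_combination (0 : K) * h2
  · (try simp only [map_add, map_mul, map_pow, map_zero]) <;> linear_combination (0 : K) * h2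
  · (try simp only [map_add, map_mul, map_pow, map_zero]) <;> linear_combination (0 : K) * h2
  · (try simp only [map_add, map_mul, map_pow, map_zero]) <;> linear_combination (0 : K) * h2
  · (try simp only [map_add, map_mul, map_pow, map_zero]) <;> linear_combination (0 : K) * h2
  · (try simp only [map_add, map_mul, map_pow, map_zero]) <;> linear_combination (0 : K) * h2
  · (try simp only [map_add, map_mul, map_pow, map_zero]) <;> linear_combination (0 : K) * h2
  · (try simp only [map_add, map_mul, map_pow, map_zero]) <;> linear_combination (0 : K) * h2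
  · (try simp only [map_add, map_mul, map_pow, map_zero]) <;> linear_combination (0 : K) * h2
  · (try simp only [map_add, map_mul, map_pow, map_zero]) <;> linear_combination (0 : K) * h2
  · (try simp only [map_add, map_mul, map_pow, map_zero]) <;> linear_combination (0 : K) * h2
  · (try simp only [map_add, map_mul, map_pow, map_zero]) <;> linear_combination (0 : K) * h2
  · (try simp only [map_add, map_mul, map_pow, map_zero]) <;> linear_combination (0 : K) * h2
  · (try simp only [map_add, map_mul, map_pow, map_zero]) <;> linear_combination (0 : K) * h2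
  · (try simp only [map_add, map_mul, map_pow, map_zero]) <;> linear_combination (0 : K) * h2
  · (try simp only [map_add, map_mul, map_pow, map_zero]) <;> linear_combination (0 : K) * h2
  · (try simp only [map_add, map_mul, map_pow, map_zero]) <;> linear_combination (0 : K) * h2
  · (try simp only [map_add, map_mul, map_pow, map_zero]) <;> linear_combination (0 : K) * h2
  · (try simp only [map_add, map_mul, map_pow, map_zero]) <;> linear_combination (0 : K) * h2
  · (try simp only [map_add, map_mul, map_pow, map_zero]) <;> linear_combination (0 : K) * h2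

set_option maxHeartbeats 4000000 in
theorem npC4 (hθ : ∀ t, (f (f t)) ^ 2 = t) (u3 v6 : K) :
    nP * E f 0 0 0 0 (u3) 0 0 0 (v6) 0 0 0 * nP⁻¹ = E f 0 0 (v6) 0 0 0 0 (u3) 0 0 0 0 := by
  have h2 : (2 : K) = 0 := CharTwo.two_eq_zero
  have hE : E f 0 0 0 0 (u3) 0 0 0 (v6) 0 0 0 = W 0 (0) (0) (0) (0) (0) (0) (0) (0) 0 (0) (0) (0) (0) ((f v6)) (0) (u3) (0) (0) (v6) (0) (0) ((f u3)^2) (0) := by
    unfold E
    apply W_congr <;> (try simp only [map_zero]) <;> ring
  rw [hE, nP_W]
  unfold E
  apply W_congr
  · (try simp only [map_add, map_mul, map_pow, map_zero]) <;> linear_combination (0 : K) * h2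
  · (try simp only [map_add, map_mul, map_pow, map_zero]) <;> linear_combination (0 : K) * h2
  · (try simp only [map_add, map_mul, map_pow, map_zero]) <;> linear_combination (0 : K) * h2
  · (try simp only [map_add, map_mul, map_pow, map_zero]) <;> linear_combination (0 : K) * h2
  · (try simp only [map_add, map_mul, map_pow, map_zero]) <;> linear_combination (0 : K) * h2
  · (try simp only [map_add, map_mul, map_pow, map_zero]) <;> linear_combination (0 : K) * h2
  · (try simp only [map_add, map_mul, map_pow, map_zero]) <;> linear_combination (0 : K) * h2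
  · (try simp only [map_add, map_mul, map_pow, map_zero]) <;> linear_combination (0 : K) * h2
  · (try simp only [map_add, map_mul, map_pow, map_zero]) <;> linear_combination (0 : K) * h2
  · (try simp only [map_add, map_mul, map_pow, map_zero]) <;> linear_combination (0 : K) * h2
  · (try simp only [map_add, map_mul, map_pow, map_zero]) <;> linear_combination (0 : K) * h2
  · (try simp only [map_add, map_mul, map_pow, map_zero]) <;> linear_combination (0 : K) * h2
  · (try simp only [map_add, map_mul, map_pow, map_zero]) <;> linear_combination (0 : K) * h2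
  · (try simp only [map_add, map_mul, map_pow, map_zero]) <;> linear_combination (0 : K) * h2
  · (try simp only [map_add, map_mul, map_pow, map_zero]) <;> linear_combination (0 : K) * h2
  · (try simp only [map_add, map_mul, map_pow, map_zero]) <;> linear_combination (0 : K) * h2
  · (try simp only [map_add, map_mul, map_pow, map_zero]) <;> linear_combination (0 : K) * h2
  · (try simp only [map_add, map_mul, map_pow, map_zero]) <;> linear_combination (0 : K) * h2
  · (try simp only [map_add, map_mul, map_pow, map_zero]) <;> linear_combination (0 : K) * h2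
  · (try simp only [map_add, map_mul, map_pow, map_zero]) <;> linear_combination (0 : K) * h2
  · (try simp only [map_add, map_mul, map_pow, map_zero]) <;> linear_combination (0 : K) * h2
  · (try simp only [map_add, map_mul, map_pow, map_zero]) <;> linear_combination (0 : K) * h2
  · (try simp only [map_add, map_mul, map_pow, map_zero]) <;> linear_combination (0 : K) * h2
  · (try simp only [map_add, map_mul, map_pow, map_zero]) <;> linear_combination (0 : K) * h2

set_option maxHeartbeats 4000000 in
theorem ncC5 (hθ : ∀ t, (f (f t)) ^ 2 = t) (v2 u5 : K) :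
    nC * E f 0 0 (v2) 0 0 0 0 (u5) 0 0 0 0 * nC⁻¹ = E f 0 0 0 0 0 0 0 (u5) 0 0 0 (v2) := by
  have h2 : (2 : K) = 0 := CharTwo.two_eq_zero
  have hE : E f 0 0 (v2) 0 0 0 0 (u5) 0 0 0 0 = W (0) 0 (0) 0 0 (0) 0 (0) (v2) (0) (0) (0) (0) ((f v2)) (0) (0) (0) (0) (0) (0) (u5) (0) (0) ((f u5)^2) := by
    unfold E
    apply W_congr <;> (try simp only [map_zero]) <;> ring
  rw [hE, nC_W]
  unfold E
  apply W_congr
  · (try simp only [map_add, map_mul, map_pow, map_zero]) <;> linear_combination (0 : K) * h2
  · (try simp only [map_add, map_mul, map_pow, map_zero]) <;> linear_combination (0 : K) * h2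
  · (try simp only [map_add, map_mul, map_pow, map_zero]) <;> linear_combination (0 : K) * h2
  · (try simp only [map_add, map_mul, map_pow, map_zero]) <;> linear_combination (0 : K) * h2
  · (try simp only [map_add, map_mul, map_pow, map_zero]) <;> linear_combination (0 : K) * h2
  · (try simp only [map_add, map_mul, map_pow, map_zero]) <;> linear_combination (0 : K) * h2
  · (try simp only [map_add, map_mul, map_pow, map_zero]) <;> linear_combination (0 : K) * h2
  · (try simp only [map_add, map_mul, map_pow, map_zero]) <;> linear_combination (0 : K) * h2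
  · (try simp only [map_add, map_mul, map_pow, map_zero]) <;> linear_combination (0 : K) * h2
  · (try simp only [map_add, map_mul, map_pow, map_zero]) <;> linear_combination (0 : K) * h2
  · (try simp only [map_add, map_mul, map_pow, map_zero]) <;> linear_combination (0 : K) * h2
  · (try simp only [map_add, map_mul, map_pow, map_zero]) <;> linear_combination (0 : K) * h2
  · (try simp only [map_add, map_mul, map_pow, map_zero]) <;> linear_combination (0 : K) * h2
  · (try simp only [map_add, map_mul, map_pow, map_zero]) <;> linear_combination (0 : K) * h2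
  · (try simp only [map_add, map_mul, map_pow, map_zero]) <;> linear_combination (0 : K) * h2
  · (try simp only [map_add, map_mul, map_pow, map_zero]) <;> linear_combination (0 : K) * h2
  · (try simp only [map_add, map_mul, map_pow, map_zero]) <;> linear_combination (0 : K) * h2
  · (try simp only [map_add, map_mul, map_pow, map_zero]) <;> linear_combination (0 : K) * h2
  · (try simp only [map_add, map_mul, map_pow, map_zero]) <;> linear_combination (0 : K) * h2
  · (try simp only [map_add, map_mul, map_pow, map_zero]) <;> linear_combination (0 : K) * h2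
  · (try simp only [map_add, map_mul, map_pow, map_zero]) <;> linear_combination (0 : K) * h2
  · (try simp only [map_add, map_mul, map_pow, map_zero]) <;> linear_combination (0 : K) * h2
  · (try simp only [map_add, map_mul, map_pow, map_zero]) <;> linear_combination (0 : K) * h2
  · (try simp only [map_add, map_mul, map_pow, map_zero]) <;> linear_combination (0 : K) * h2

set_option maxHeartbeats 4000000 in
theorem ncA (hθ : ∀ t, (f (f t)) ^ 2 = t) (v2 t3 u3 v4 t5 u5 v6 t7 u7 : K) :
    nC * E f 0 0 (v2) (t3) (u3) (v4) (t5) (u5) (v6) (t7) (u7) 0 * nC⁻¹ = E f 0 0 0 (t7) (u7) (v6 + t5*t7) (t5) (u5 + u7*(f v2) + (f t3)*(f v6) + (f t7)*(f v4) + t7*(f t7)*(f v2) + (f t3)*(f t5)*(f t7)) (v4 + t3*t5 + v2*(f t7)^2) (t3) (u3 + v2*(f t7) + (f t5)*(f v2)) (v2) := by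
  have h2 : (2 : K) = 0 := CharTwo.two_eq_zero
  have hE : E f 0 0 (v2) (t3) (u3) (v4) (t5) (u5) (v6) (t7) (u7) 0 = W (0) 0 (t7) 0 0 ((f t5)) 0 (t3) (v2) (0) ((f t7)) ((f t3)) (u7) ((f v2)) ((f v6)) ((f v4) + t7*(f v2) + (f t3)*(f t5)) (u3 + (f t5)*(f v2)) (t5) ((f u7)^2 + t7*(f t7)^2) (v6 + t5*t7) (u5 + t5*(f t5) + u7*(f v2) + (f t7)*(f v4) + t7*(f t7)*(f v2) + (f t3)*(f t5)*(f t7)) (v4) ((f u3)^2 + t3*(f t3)^2 + t7*(f v2)^2) (t7*v4 + (f u5)^2) := by
    unfold E
    apply W_congr <;> (try simp only [map_zero]) <;> ring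
  rw [hE, nC_W]
  unfold E
  apply W_congr
  · (try simp only [map_add, map_mul, map_pow, map_zero]) <;> linear_combination (0 : K) * h2
  · (try simp only [map_add, map_mul, map_pow, map_zero]) <;> linear_combination (0 : K) * h2
  · (try simp only [map_add, map_mul, map_pow, map_zero]) <;> linear_combination (0 : K) * h2
  · (try simp only [map_add, map_mul, map_pow, map_zero]) <;> linear_combination (0 : K) * h2
  · (try simp only [map_add, map_mul, map_pow, map_zero]) <;> linear_combination (0 : K) * h2
  · (try simp only [map_add, map_mul, map_pow, map_zero]) <;> linear_combination (0 : K) * h2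
  · (try simp only [map_add, map_mul, map_pow, map_zero]) <;> linear_combination (0 : K) * h2
  · (try simp only [map_add, map_mul, map_pow, map_zero]) <;> linear_combination (0 : K) * h2
  · (try simp only [map_add, map_mul, map_pow, map_zero]) <;> linear_combination (0 : K) * h2
  · (try simp only [map_add, map_mul, map_pow, map_zero]) <;> linear_combination (0 : K) * h2
  · (try simp only [map_add, map_mul, map_pow, map_zero]) <;> linear_combination (0 : K) * h2
  · (try simp only [map_add, map_mul, map_pow, map_zero]) <;> linear_combination (0 : K) * h2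
  · (try simp only [map_add, map_mul, map_pow, map_zero]) <;> linear_combination (-v2*(f t7)) * h2
  · (try simp only [map_add, map_mul, map_pow, map_zero]) <;> linear_combination (0 : K) * h2
  · (try simp only [map_add, map_mul, map_pow, map_zero]) <;> linear_combination (-(f v2)) * hθ t7
  · (try simp only [map_add, map_mul, map_pow, map_zero]) <;> linear_combination (-(f t5)*(f t7)) * h2
  · (try simp only [map_add, map_mul, map_pow, map_zero]) <;> linear_combination (0 : K) * h2
  · (try simp only [map_add, map_mul, map_pow, map_zero]) <;> linear_combination (0 : K) * h2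
  · (try simp only [map_add, map_mul, map_pow, map_zero]) <;> linear_combination (-t5*v2 - (f u3)*(f v2)*(f (f t7)) - (f u3)*(f (f t5))*(f (f v2)) - (f v2)*(f (f t5))*(f (f t7))*(f (f v2))) * h2 + (-(f v2)^2) * hθ t7 + (-(f (f v2))^2) * hθ t5 + (-t5) * hθ v2
  · (try simp only [map_add, map_mul, map_pow, map_zero]) <;> linear_combination (-t3*t5 - v2*(f t7)^2) * h2
  · (try simp only [map_add, map_mul, map_pow, map_zero]) <;> linear_combination (-(f t3)*(f v6) - (f t3)*(f t5)*(f t7)) * h2
  · (try simp only [map_add, map_mul, map_pow, map_zero]) <;> linear_combination (0 : K) * h2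
  · (try simp only [map_add, map_mul, map_pow, map_zero]) <;> linear_combination (0 : K) * h2
  · (try simp only [map_add, map_mul, map_pow, map_zero]) <;> linear_combination (-t3*v6 - t3*t5*t7 - v2*(f u7)^2 - (f u5)*(f u7)*(f (f v2)) - (f u5)*(f (f t3))*(f (f v6)) - (f u5)*(f (f t7))*(f (f v4)) - t3*(f (f t5))*(f (f t7))*(f (f v6)) - t7*v2*(f t7)^2 - t7*(f t7)*(f (f v2))*(f (f v4)) - t7*(f (f t3))*(f (f t5))*(f (f v4)) - v2*(f t7)*(f u7)*(f (f t7)) - (f t7)*(f u5)*(f (f t7))*(f (f v2)) - (f u5)*(f (f t3))*(f (f t5))*(f (f t7)) - (f u7)*(f (f t3))*(f (f v2))*(f (f v6)) - (f u7)*(f (f t7))*(f (f v2))*(f (f v4)) - (f (f t3))*(f (f t7))*(f (f v4))*(f (f v6)) - t7*(f t7)*(f (f t3))*(f (f t5))*(f (f v2)) - (f t7)*(f (f t3))*(f (f t7))*(f (f v2))*(f (f v6)) - (f u7)*(f (f t3))*(f (f t5))*(f (f t7))*(f (f v2))) * h2 + (-t3*t5 - (f (f v4))^2 - 2*(f t7)*(f (f v2))*(f (f v4)) - 2*(f (f t3))*(f (f t5))*(f (f v4)) - (f t7)^2*(f (f v2))^2 - 2*(f t7)*(f (f t3))*(f (f t5))*(f (f v2))) * hθ t7 + (-(f u7)^2 - t7*(f t7)^2 - 2*(f t7)*(f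 u7)*(f (f t7))) * hθ v2 + (-(f (f v6))^2 - 2*(f (f t5))*(f (f t7))*(f (f v6)) - (f (f t5))^2*(f (f t7))^2) * hθ t3 + (-t3*(f (f t7))^2) * hθ t5 + (-t3) * hθ v6 + (-t7) * hθ v4

set_option maxHeartbeats 4000000 in
theorem npA (hθ : ∀ t, (f (f t)) ^ 2 = t) (t3 u3 v4 t5 u5 v6 t7 u7 : K) :
    nP * E f 0 0 0 (t3) (u3) (v4) (t5) (u5) (v6) (t7) (u7) 0 * nP⁻¹ = E f (t7) (u7) (v6 + t5*t7) (t5) (u5 + (f t3)*(f v6) + (f t7)*(f v4) + (f t3)*(f t5)*(f t7)) (v4 + t3*t5) (t3) (u3) 0 0 0 0 := by
  have h2 : (2 : K) = 0 := CharTwo.two_eq_zero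
  have hE : E f 0 0 0 (t3) (u3) (v4) (t5) (u5) (v6) (t7) (u7) 0 = W 0 (0) (t7) (0) (0) ((f t5)) (0) (t3) (0) 0 ((f t7)) ((f t3)) (u7) (0) ((f v6)) ((f v4) + (f t3)*(f t5)) (u3) (t5) ((f u7)^2 + t7*(f t7)^2) (v6 + t5*t7) (u5 + t5*(f t5) + (f t7)*(f v4) + (f t3)*(f t5)*(f t7)) (v4) ((f u3)^2 + t3*(f t3)^2) (t7*v4 + (f u5)^2) := by
    unfold E
    apply W_congr <;> (try simp only [map_zero]) <;> ring
  rw [hE, nP_W]
  unfold E
  apply W_congr
  · (try simp only [map_add, map_mul, map_pow, map_zero]) <;> linear_combination (0 : K) * h2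
  · (try simp only [map_add, map_mul, map_pow, map_zero]) <;> linear_combination (0 : K) * h2
  · (try simp only [map_add, map_mul, map_pow, map_zero]) <;> linear_combination (0 : K) * h2
  · (try simp only [map_add, map_mul, map_pow, map_zero]) <;> linear_combination (0 : K) * h2
  · (try simp only [map_add, map_mul, map_pow, map_zero]) <;> linear_combination (0 : K) * h2
  · (try simp only [map_add, map_mul, map_pow, map_zero]) <;> linear_combination (0 : K) * h2
  · (try simp only [map_add, map_mul, map_pow, map_zero]) <;> linear_combination (0 : K) * h2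
  · (try simp only [map_add, map_mul, map_pow, map_zero]) <;> linear_combination (0 : K) * h2
  · (try simp only [map_add, map_mul, map_pow, map_zero]) <;> linear_combination (0 : K) * h2
  · (try simp only [map_add, map_mul, map_pow, map_zero]) <;> linear_combination (0 : K) * h2
  · (try simp only [map_add, map_mul, map_pow, map_zero]) <;> linear_combination (0 : K) * h2
  · (try simp only [map_add, map_mul, map_pow, map_zero]) <;> linear_combination (0 : K) * h2
  · (try simp only [map_add, map_mul, map_pow, map_zero]) <;> linear_combination (0 : K) * h2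
  · (try simp only [map_add, map_mul, map_pow, map_zero]) <;> linear_combination (0 : K) * h2
  · (try simp only [map_add, map_mul, map_pow, map_zero]) <;> linear_combination (0 : K) * h2
  · (try simp only [map_add, map_mul, map_pow, map_zero]) <;> linear_combination (0 : K) * h2
  · (try simp only [map_add, map_mul, map_pow, map_zero]) <;> linear_combination (t5*(f t5) - (f t3)*(f v6)) * h2
  · (try simp only [map_add, map_mul, map_pow, map_zero]) <;> linear_combination (0 : K) * h2
  · (try simp only [map_add, map_mul, map_pow, map_zero]) <;> linear_combination (0 : K) * h2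
  · (try simp only [map_add, map_mul, map_pow, map_zero]) <;> linear_combination (0 : K) * h2
  · (try simp only [map_add, map_mul, map_pow, map_zero]) <;> linear_combination (0 : K) * h2
  · (try simp only [map_add, map_mul, map_pow, map_zero]) <;> linear_combination (0 : K) * h2
  · (try simp only [map_add, map_mul, map_pow, map_zero]) <;> linear_combination (-(f u5)*(f (f t3))*(f (f v6)) - (f u5)*(f (f t7))*(f (f v4)) - t3*(f (f t5))*(f (f t7))*(f (f v6)) - t7*(f (f t3))*(f (f t5))*(f (f v4)) - (f u5)*(f (f t3))*(f (f t5))*(f (f t7)) - (f (f t3))*(f (f t7))*(f (f v4))*(f (f v6))) * h2 + (-(f (f v6))^2 - 2*(f (f t5))*(f (f t7))*(f (f v6)) - (f (f t5))^2*(f (f t7))^2) * hθ t3 + (-t3*t5 - (f (f v4))^2 - 2*(f (f t3))*(f (f t5))*(f (f v4))) * hθ t7 + (-t3) * hθ v6 + (-t7) * hθ v4 + (-t3*(f (f t7))^2) * hθ t5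
  · (try simp only [map_add, map_mul, map_pow, map_zero]) <;> linear_combination (t3*(f t3)^2) * h2

set_option maxHeartbeats 4000000 in
theorem ncB (hθ : ∀ t, (f (f t)) ^ 2 = t) (t3 u3 v4 t5 u5 v6 : K) :
    nC * E f 0 0 0 (t3) (u3) (v4) (t5) (u5) (v6) 0 0 0 * nC⁻¹ = E f 0 0 0 0 0 (v6) (t5) (u5 + (f t3)*(f v6)) (v4 + t3*t5) (t3) (u3) 0 := by
  have h2 : (2 : K) = 0 := CharTwo.two_eq_zero
  have hE : E f 0 0 0 (t3) (u3) (v4) (t5) (u5) (v6) 0 0 0 = W (0) 0 (0) 0 0 ((f t5)) 0 (t3) (0) (0) (0) ((f t3)) (0) (0) ((f v6)) ((f v4) + (f t3)*(f t5)) (u3) (t5) (0) (v6) (u5 + t5*(f t5)) (v4) ((f u3)^2 + t3*(f t3)^2) ((f u5)^2) := by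
    unfold E
    apply W_congr <;> (try simp only [map_zero]) <;> ring
  rw [hE, nC_W]
  unfold E
  apply W_congr
  · (try simp only [map_add, map_mul, map_pow, map_zero]) <;> linear_combination (0 : K) * h2
  · (try simp only [map_add, map_mul, map_pow, map_zero]) <;> linear_combination (0 : K) * h2
  · (try simp only [map_add, map_mul, map_pow, map_zero]) <;> linear_combination (0 : K) * h2
  · (try simp only [map_add, map_mul, map_pow, map_zero]) <;> linear_combination (0 : K) * h2
  · (try simp only [map_add, map_mul, map_pow, map_zero]) <;> linear_combination (0 : K) * h2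
  · (try simp only [map_add, map_mul, map_pow, map_zero]) <;> linear_combination (0 : K) * h2
  · (try simp only [map_add, map_mul, map_pow, map_zero]) <;> linear_combination (0 : K) * h2
  · (try simp only [map_add, map_mul, map_pow, map_zero]) <;> linear_combination (0 : K) * h2
  · (try simp only [map_add, map_mul, map_pow, map_zero]) <;> linear_combination (0 : K) * h2
  · (try simp only [map_add, map_mul, map_pow, map_zero]) <;> linear_combination (0 : K) * h2
  · (try simp only [map_add, map_mul, map_pow, map_zero]) <;> linear_combination (0 : K) * h2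
  · (try simp only [map_add, map_mul, map_pow, map_zero]) <;> linear_combination (0 : K) * h2
  · (try simp only [map_add, map_mul, map_pow, map_zero]) <;> linear_combination (0 : K) * h2
  · (try simp only [map_add, map_mul, map_pow, map_zero]) <;> linear_combination (0 : K) * h2
  · (try simp only [map_add, map_mul, map_pow, map_zero]) <;> linear_combination (0 : K) * h2
  · (try simp only [map_add, map_mul, map_pow, map_zero]) <;> linear_combination (0 : K) * h2
  · (try simp only [map_add, map_mul, map_pow, map_zero]) <;> linear_combination (0 : K) * h2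
  · (try simp only [map_add, map_mul, map_pow, map_zero]) <;> linear_combination (0 : K) * h2
  · (try simp only [map_add, map_mul, map_pow, map_zero]) <;> linear_combination (0 : K) * h2
  · (try simp only [map_add, map_mul, map_pow, map_zero]) <;> linear_combination (-t3*t5) * h2
  · (try simp only [map_add, map_mul, map_pow, map_zero]) <;> linear_combination (-(f t3)*(f v6)) * h2
  · (try simp only [map_add, map_mul, map_pow, map_zero]) <;> linear_combination (0 : K) * h2
  · (try simp only [map_add, map_mul, map_pow, map_zero]) <;> linear_combination (0 : K) * h2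
  · (try simp only [map_add, map_mul, map_pow, map_zero]) <;> linear_combination (-t3*v6 - (f u5)*(f (f t3))*(f (f v6))) * h2 + (-(f (f v6))^2) * hθ t3 + (-t3) * hθ v6

set_option maxHeartbeats 4000000 in
theorem npB (hθ : ∀ t, (f (f t)) ^ 2 = t) (v4 t5 u5 v6 t7 u7 : K) :
    nP * E f 0 0 0 0 0 (v4) (t5) (u5) (v6) (t7) (u7) 0 * nP⁻¹ = E f (t7) (u7) (v6 + t5*t7) (t5) (u5 + (f t7)*(f v4)) (v4) 0 0 0 0 0 0 := by
  have h2 : (2 : K) = 0 := CharTwo.two_eq_zero
  have hE : E f 0 0 0 0 0 (v4) (t5) (u5) (v6) (t7) (u7) 0 = W 0 (0) (t7) (0) (0) ((f t5)) (0) (0) (0) 0 ((f t7)) (0) (u7) (0) ((f v6)) ((f v4)) (0) (t5) ((f u7)^2 + t7*(f t7)^2) (v6 + t5*t7) (u5 + t5*(f t5) + (f t7)*(f v4)) (v4) (0) (t7*v4 + (f u5)^2) := by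
    unfold E
    apply W_congr <;> (try simp only [map_zero]) <;> ring
  rw [hE, nP_W]
  unfold E
  apply W_congr
  · (try simp only [map_add, map_mul, map_pow, map_zero]) <;> linear_combination (0 : K) * h2
  · (try simp only [map_add, map_mul, map_pow, map_zero]) <;> linear_combination (0 : K) * h2
  · (try simp only [map_add, map_mul, map_pow, map_zero]) <;> linear_combination (0 : K) * h2
  · (try simp only [map_add, map_mul, map_pow, map_zero]) <;> linear_combination (0 : K) * h2
  · (try simp only [map_add, map_mul, map_pow, map_zero]) <;> linear_combination (0 : K) * h2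
  · (try simp only [map_add, map_mul, map_pow, map_zero]) <;> linear_combination (0 : K) * h2
  · (try simp only [map_add, map_mul, map_pow, map_zero]) <;> linear_combination (0 : K) * h2
  · (try simp only [map_add, map_mul, map_pow, map_zero]) <;> linear_combination (0 : K) * h2
  · (try simp only [map_add, map_mul, map_pow, map_zero]) <;> linear_combination (0 : K) * h2
  · (try simp only [map_add, map_mul, map_pow, map_zero]) <;> linear_combination (0 : K) * h2
  · (try simp only [map_add, map_mul, map_pow, map_zero]) <;> linear_combination (0 : K) * h2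
  · (try simp only [map_add, map_mul, map_pow, map_zero]) <;> linear_combination (0 : K) * h2
  · (try simp only [map_add, map_mul, map_pow, map_zero]) <;> linear_combination (0 : K) * h2
  · (try simp only [map_add, map_mul, map_pow, map_zero]) <;> linear_combination (0 : K) * h2
  · (try simp only [map_add, map_mul, map_pow, map_zero]) <;> linear_combination (0 : K) * h2
  · (try simp only [map_add, map_mul, map_pow, map_zero]) <;> linear_combination (0 : K) * h2
  · (try simp only [map_add, map_mul, map_pow, map_zero]) <;> linear_combination (t5*(f t5)) * h2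
  · (try simp only [map_add, map_mul, map_pow, map_zero]) <;> linear_combination (0 : K) * h2
  · (try simp only [map_add, map_mul, map_pow, map_zero]) <;> linear_combination (0 : K) * h2
  · (try simp only [map_add, map_mul, map_pow, map_zero]) <;> linear_combination (0 : K) * h2
  · (try simp only [map_add, map_mul, map_pow, map_zero]) <;> linear_combination (0 : K) * h2
  · (try simp only [map_add, map_mul, map_pow, map_zero]) <;> linear_combination (0 : K) * h2
  · (try simp only [map_add, map_mul, map_pow, map_zero]) <;> linear_combination (-(f u5)*(f (f t7))*(f (f v4))) * h2 + (-(f (f v4))^2) * hθ t7 + (-t7) * hθ v4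
  · (try simp only [map_add, map_mul, map_pow, map_zero]) <;> linear_combination (0 : K) * h2

set_option maxHeartbeats 4000000 in
theorem npC (hθ : ∀ t, (f (f t)) ^ 2 = t) (v4 t5 u5 v6 : K) :
    nP * E f 0 0 0 0 0 (v4) (t5) (u5) (v6) 0 0 0 * nP⁻¹ = E f 0 0 (v6) (t5) (u5) (v4) 0 0 0 0 0 0 := by
  have h2 : (2 : K) = 0 := CharTwo.two_eq_zero
  have hE : E f 0 0 0 0 0 (v4) (t5) (u5) (v6) 0 0 0 = W 0 (0) (0) (0) (0) ((f t5)) (0) (0) (0) 0 (0) (0) (0) (0) ((f v6)) ((f v4)) (0) (t5) (0) (v6) (u5 + t5*(f t5)) (v4) (0) ((f u5)^2) := by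
    unfold E
    apply W_congr <;> (try simp only [map_zero]) <;> ring
  rw [hE, nP_W]
  unfold E
  apply W_congr
  · (try simp only [map_add, map_mul, map_pow, map_zero]) <;> linear_combination (0 : K) * h2
  · (try simp only [map_add, map_mul, map_pow, map_zero]) <;> linear_combination (0 : K) * h2
  · (try simp only [map_add, map_mul, map_pow, map_zero]) <;> linear_combination (0 : K) * h2
  · (try simp only [map_add, map_mul, map_pow, map_zero]) <;> linear_combination (0 : K) * h2
  · (try simp only [map_add, map_mul, map_pow, map_zero]) <;> linear_combination (0 : K) * h2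
  · (try simp only [map_add, map_mul, map_pow, map_zero]) <;> linear_combination (0 : K) * h2
  · (try simp only [map_add, map_mul, map_pow, map_zero]) <;> linear_combination (0 : K) * h2
  · (try simp only [map_add, map_mul, map_pow, map_zero]) <;> linear_combination (0 : K) * h2
  · (try simp only [map_add, map_mul, map_pow, map_zero]) <;> linear_combination (0 : K) * h2
  · (try simp only [map_add, map_mul, map_pow, map_zero]) <;> linear_combination (0 : K) * h2
  · (try simp only [map_add, map_mul, map_pow, map_zero]) <;> linear_combination (0 : K) * h2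
  · (try simp only [map_add, map_mul, map_pow, map_zero]) <;> linear_combination (0 : K) * h2
  · (try simp only [map_add, map_mul, map_pow, map_zero]) <;> linear_combination (0 : K) * h2
  · (try simp only [map_add, map_mul, map_pow, map_zero]) <;> linear_combination (0 : K) * h2
  · (try simp only [map_add, map_mul, map_pow, map_zero]) <;> linear_combination (0 : K) * h2
  · (try simp only [map_add, map_mul, map_pow, map_zero]) <;> linear_combination (0 : K) * h2
  · (try simp only [map_add, map_mul, map_pow, map_zero]) <;> linear_combination (t5*(f t5)) * h2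
  · (try simp only [map_add, map_mul, map_pow, map_zero]) <;> linear_combination (0 : K) * h2
  · (try simp only [map_add, map_mul, map_pow, map_zero]) <;> linear_combination (0 : K) * h2
  · (try simp only [map_add, map_mul, map_pow, map_zero]) <;> linear_combination (0 : K) * h2
  · (try simp only [map_add, map_mul, map_pow, map_zero]) <;> linear_combination (0 : K) * h2
  · (try simp only [map_add, map_mul, map_pow, map_zero]) <;> linear_combination (0 : K) * h2
  · (try simp only [map_add, map_mul, map_pow, map_zero]) <;> linear_combination (0 : K) * h2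
  · (try simp only [map_add, map_mul, map_pow, map_zero]) <;> linear_combination (0 : K) * h2

set_option maxHeartbeats 4000000 in
theorem ncC (hθ : ∀ t, (f (f t)) ^ 2 = t) (v2 t3 u3 v4 : K) :
    nC * E f 0 0 (v2) (t3) (u3) (v4) 0 0 0 0 0 0 * nC⁻¹ = E f 0 0 0 0 0 0 0 0 (v4) (t3) (u3) (v2) := by
  have h2 : (2 : K) = 0 := CharTwo.two_eq_zero
  have hE : E f 0 0 (v2) (t3) (u3) (v4) 0 0 0 0 0 0 = W (0) 0 (0) 0 0 (0) 0 (t3) (v2) (0) (0) ((f t3)) (0) ((f v2)) (0) ((f v4)) (u3) (0) (0) (0) (0) (v4) ((f u3)^2 + t3*(f t3)^2) (0) := by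
    unfold E
    apply W_congr <;> (try simp only [map_zero]) <;> ring
  rw [hE, nC_W]
  unfold E
  apply W_congr
  · (try simp only [map_add, map_mul, map_pow, map_zero]) <;> linear_combination (0 : K) * h2
  · (try simp only [map_add, map_mul, map_pow, map_zero]) <;> linear_combination (0 : K) * h2
  · (try simp only [map_add, map_mul, map_pow, map_zero]) <;> linear_combination (0 : K) * h2
  · (try simp only [map_add, map_mul, map_pow, map_zero]) <;> linear_combination (0 : K) * h2
  · (try simp only [map_add, map_mul, map_pow, map_zero]) <;> linear_combination (0 : K) * h2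
  · (try simp only [map_add, map_mul, map_pow, map_zero]) <;> linear_combination (0 : K) * h2
  · (try simp only [map_add, map_mul, map_pow, map_zero]) <;> linear_combination (0 : K) * h2
  · (try simp only [map_add, map_mul, map_pow, map_zero]) <;> linear_combination (0 : K) * h2
  · (try simp only [map_add, map_mul, map_pow, map_zero]) <;> linear_combination (0 : K) * h2
  · (try simp only [map_add, map_mul, map_pow, map_zero]) <;> linear_combination (0 : K) * h2
  · (try simp only [map_add, map_mul, map_pow, map_zero]) <;> linear_combination (0 : K) * h2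
  · (try simp only [map_add, map_mul, map_pow, map_zero]) <;> linear_combination (0 : K) * h2
  · (try simp only [map_add, map_mul, map_pow, map_zero]) <;> linear_combination (0 : K) * h2
  · (try simp only [map_add, map_mul, map_pow, map_zero]) <;> linear_combination (0 : K) * h2
  · (try simp only [map_add, map_mul, map_pow, map_zero]) <;> linear_combination (0 : K) * h2
  · (try simp only [map_add, map_mul, map_pow, map_zero]) <;> linear_combination (0 : K) * h2
  · (try simp only [map_add, map_mul, map_pow, map_zero]) <;> linear_combination (0 : K) * h2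
  · (try simp only [map_add, map_mul, map_pow, map_zero]) <;> linear_combination (0 : K) * h2
  · (try simp only [map_add, map_mul, map_pow, map_zero]) <;> linear_combination (0 : K) * h2
  · (try simp only [map_add, map_mul, map_pow, map_zero]) <;> linear_combination (0 : K) * h2
  · (try simp only [map_add, map_mul, map_pow, map_zero]) <;> linear_combination (0 : K) * h2
  · (try simp only [map_add, map_mul, map_pow, map_zero]) <;> linear_combination (0 : K) * h2
  · (try simp only [map_add, map_mul, map_pow, map_zero]) <;> linear_combination (0 : K) * h2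
  · (try simp only [map_add, map_mul, map_pow, map_zero]) <;> linear_combination (0 : K) * h2

set_option maxHeartbeats 4000000 in
theorem ncD (hθ : ∀ t, (f (f t)) ^ 2 = t) (v4 t5 u5 : K) :
    nC * E f 0 0 0 0 0 (v4) (t5) (u5) 0 0 0 0 * nC⁻¹ = E f 0 0 0 0 0 0 (t5) (u5) (v4) 0 0 0 := by
  have h2 : (2 : K) = 0 := CharTwo.two_eq_zero
  have hE : E f 0 0 0 0 0 (v4) (t5) (u5) 0 0 0 0 = W (0) 0 (0) 0 0 ((f t5)) 0 (0) (0) (0) (0) (0) (0) (0) (0) ((f v4)) (0) (t5) (0) (0) (u5 + t5*(f t5)) (v4) (0) ((f u5)^2) := by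
    unfold E
    apply W_congr <;> (try simp only [map_zero]) <;> ring
  rw [hE, nC_W]
  unfold E
  apply W_congr
  · (try simp only [map_add, map_mul, map_pow, map_zero]) <;> linear_combination (0 : K) * h2
  · (try simp only [map_add, map_mul, map_pow, map_zero]) <;> linear_combination (0 : K) * h2
  · (try simp only [map_add, map_mul, map_pow, map_zero]) <;> linear_combination (0 : K) * h2
  · (try simp only [map_add, map_mul, map_pow, map_zero]) <;> linear_combination (0 : K) * h2
  · (try simp only [map_add, map_mul, map_pow, map_zero]) <;> linear_combination (0 : K) * h2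
  · (try simp only [map_add, map_mul, map_pow, map_zero]) <;> linear_combination (0 : K) * h2
  · (try simp only [map_add, map_mul, map_pow, map_zero]) <;> linear_combination (0 : K) * h2
  · (try simp only [map_add, map_mul, map_pow, map_zero]) <;> linear_combination (0 : K) * h2
  · (try simp only [map_add, map_mul, map_pow, map_zero]) <;> linear_combination (0 : K) * h2
  · (try simp only [map_add, map_mul, map_pow, map_zero]) <;> linear_combination (0 : K) * h2
  · (try simp only [map_add, map_mul, map_pow, map_zero]) <;> linear_combination (0 : K) * h2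
  · (try simp only [map_add, map_mul, map_pow, map_zero]) <;> linear_combination (0 : K) * h2
  · (try simp only [map_add, map_mul, map_pow, map_zero]) <;> linear_combination (0 : K) * h2
  · (try simp only [map_add, map_mul, map_pow, map_zero]) <;> linear_combination (0 : K) * h2
  · (try simp only [map_add, map_mul, map_pow, map_zero]) <;> linear_combination (0 : K) * h2
  · (try simp only [map_add, map_mul, map_pow, map_zero]) <;> linear_combination (0 : K) * h2
  · (try simp only [map_add, map_mul, map_pow, map_zero]) <;> linear_combination (0 : K) * h2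
  · (try simp only [map_add, map_mul, map_pow, map_zero]) <;> linear_combination (0 : K) * h2
  · (try simp only [map_add, map_mul, map_pow, map_zero]) <;> linear_combination (0 : K) * h2
  · (try simp only [map_add, map_mul, map_pow, map_zero]) <;> linear_combination (0 : K) * h2
  · (try simp only [map_add, map_mul, map_pow, map_zero]) <;> linear_combination (0 : K) * h2
  · (try simp only [map_add, map_mul, map_pow, map_zero]) <;> linear_combination (0 : K) * h2
  · (try simp only [map_add, map_mul, map_pow, map_zero]) <;> linear_combination (0 : K) * h2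
  · (try simp only [map_add, map_mul, map_pow, map_zero]) <;> linear_combination (0 : K) * h2

set_option maxHeartbeats 4000000 in
theorem npD (hθ : ∀ t, (f (f t)) ^ 2 = t) (t5 u5 v6 : K) :
    nP * E f 0 0 0 0 0 0 (t5) (u5) (v6) 0 0 0 * nP⁻¹ = E f 0 0 (v6) (t5) (u5) 0 0 0 0 0 0 0 := by
  have h2 : (2 : K) = 0 := CharTwo.two_eq_zero
  have hE : E f 0 0 0 0 0 0 (t5) (u5) (v6) 0 0 0 = W 0 (0) (0) (0) (0) ((f t5)) (0) (0) (0) 0 (0) (0) (0) (0) ((f v6)) (0) (0) (t5) (0) (v6) (u5 + t5*(f t5)) (0) (0) ((f u5)^2) := by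
    unfold E
    apply W_congr <;> (try simp only [map_zero]) <;> ring
  rw [hE, nP_W]
  unfold E
  apply W_congr
  · (try simp only [map_add, map_mul, map_pow, map_zero]) <;> linear_combination (0 : K) * h2
  · (try simp only [map_add, map_mul, map_pow, map_zero]) <;> linear_combination (0 : K) * h2
  · (try simp only [map_add, map_mul, map_pow, map_zero]) <;> linear_combination (0 : K) * h2
  · (try simp only [map_add, map_mul, map_pow, map_zero]) <;> linear_combination (0 : K) * h2
  · (try simp only [map_add, map_mul, map_pow, map_zero]) <;> linear_combination (0 : K) * h2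
  · (try simp only [map_add, map_mul, map_pow, map_zero]) <;> linear_combination (0 : K) * h2
  · (try simp only [map_add, map_mul, map_pow, map_zero]) <;> linear_combination (0 : K) * h2
  · (try simp only [map_add, map_mul, map_pow, map_zero]) <;> linear_combination (0 : K) * h2
  · (try simp only [map_add, map_mul, map_pow, map_zero]) <;> linear_combination (0 : K) * h2
  · (try simp only [map_add, map_mul, map_pow, map_zero]) <;> linear_combination (0 : K) * h2
  · (try simp only [map_add, map_mul, map_pow, map_zero]) <;> linear_combination (0 : K) * h2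
  · (try simp only [map_add, map_mul, map_pow, map_zero]) <;> linear_combination (0 : K) * h2
  · (try simp only [map_add, map_mul, map_pow, map_zero]) <;> linear_combination (0 : K) * h2
  · (try simp only [map_add, map_mul, map_pow, map_zero]) <;> linear_combination (0 : K) * h2
  · (try simp only [map_add, map_mul, map_pow, map_zero]) <;> linear_combination (0 : K) * h2
  · (try simp only [map_add, map_mul, map_pow, map_zero]) <;> linear_combination (0 : K) * h2
  · (try simp only [map_add, map_mul, map_pow, map_zero]) <;> linear_combination (t5*(f t5)) * h2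
  · (try simp only [map_add, map_mul, map_pow, map_zero]) <;> linear_combination (0 : K) * h2
  · (try simp only [map_add, map_mul, map_pow, map_zero]) <;> linear_combination (0 : K) * h2
  · (try simp only [map_add, map_mul, map_pow, map_zero]) <;> linear_combination (0 : K) * h2
  · (try simp only [map_add, map_mul, map_pow, map_zero]) <;> linear_combination (0 : K) * h2
  · (try simp only [map_add, map_mul, map_pow, map_zero]) <;> linear_combination (0 : K) * h2
  · (try simp only [map_add, map_mul, map_pow, map_zero]) <;> linear_combination (0 : K) * h2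
  · (try simp only [map_add, map_mul, map_pow, map_zero]) <;> linear_combination (0 : K) * h2

set_option maxHeartbeats 4000000 in
theorem ncE (hθ : ∀ t, (f (f t)) ^ 2 = t) (v2 t3 u3 : K) :
    nC * E f 0 0 (v2) (t3) (u3) 0 0 0 0 0 0 0 * nC⁻¹ = E f 0 0 0 0 0 0 0 0 0 (t3) (u3) (v2) := by
  have h2 : (2 : K) = 0 := CharTwo.two_eq_zero
  have hE : E f 0 0 (v2) (t3) (u3) 0 0 0 0 0 0 0 = W (0) 0 (0) 0 0 (0) 0 (t3) (v2) (0) (0) ((f t3)) (0) ((f v2)) (0) (0) (u3) (0) (0) (0) (0) (0) ((f u3)^2 + t3*(f t3)^2) (0) := by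
    unfold E
    apply W_congr <;> (try simp only [map_zero]) <;> ring
  rw [hE, nC_W]
  unfold E
  apply W_congr
  · (try simp only [map_add, map_mul, map_pow, map_zero]) <;> linear_combination (0 : K) * h2
  · (try simp only [map_add, map_mul, map_pow, map_zero]) <;> linear_combination (0 : K) * h2
  · (try simp only [map_add, map_mul, map_pow, map_zero]) <;> linear_combination (0 : K) * h2
  · (try simp only [map_add, map_mul, map_pow, map_zero]) <;> linear_combination (0 : K) * h2
  · (try simp only [map_add, map_mul, map_pow, map_zero]) <;> linear_combination (0 : K) * h2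
  · (try simp only [map_add, map_mul, map_pow, map_zero]) <;> linear_combination (0 : K) * h2
  · (try simp only [map_add, map_mul, map_pow, map_zero]) <;> linear_combination (0 : K) * h2
  · (try simp only [map_add, map_mul, map_pow, map_zero]) <;> linear_combination (0 : K) * h2
  · (try simp only [map_add, map_mul, map_pow, map_zero]) <;> linear_combination (0 : K) * h2
  · (try simp only [map_add, map_mul, map_pow, map_zero]) <;> linear_combination (0 : K) * h2
  · (try simp only [map_add, map_mul, map_pow, map_zero]) <;> linear_combination (0 : K) * h2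
  · (try simp only [map_add, map_mul, map_pow, map_zero]) <;> linear_combination (0 : K) * h2
  · (try simp only [map_add, map_mul, map_pow, map_zero]) <;> linear_combination (0 : K) * h2
  · (try simp only [map_add, map_mul, map_pow, map_zero]) <;> linear_combination (0 : K) * h2
  · (try simp only [map_add, map_mul, map_pow, map_zero]) <;> linear_combination (0 : K) * h2
  · (try simp only [map_add, map_mul, map_pow, map_zero]) <;> linear_combination (0 : K) * h2
  · (try simp only [map_add, map_mul, map_pow, map_zero]) <;> linear_combination (0 : K) * h2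
  · (try simp only [map_add, map_mul, map_pow, map_zero]) <;> linear_combination (0 : K) * h2
  · (try simp only [map_add, map_mul, map_pow, map_zero]) <;> linear_combination (0 : K) * h2
  · (try simp only [map_add, map_mul, map_pow, map_zero]) <;> linear_combination (0 : K) * h2
  · (try simp only [map_add, map_mul, map_pow, map_zero]) <;> linear_combination (0 : K) * h2
  · (try simp only [map_add, map_mul, map_pow, map_zero]) <;> linear_combination (0 : K) * h2
  · (try simp only [map_add, map_mul, map_pow, map_zero]) <;> linear_combination (0 : K) * h2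
  · (try simp only [map_add, map_mul, map_pow, map_zero]) <;> linear_combination (0 : K) * h2

set_option maxHeartbeats 4000000 in
theorem sqF (hθ : ∀ t, (f (f t)) ^ 2 = t) {t5 u5 : K}
    (h : E f 0 0 0 0 0 0 (t5) (u5) 0 0 0 0 * E f 0 0 0 0 0 0 (t5) (u5) 0 0 0 0 = 1) : t5*(f t5) = 0 := by
  have h2 : (2 : K) = 0 := CharTwo.two_eq_zero
  unfold E at h
  rw [W_mul, ← W_zero] at h
  obtain ⟨h24, h25, h26, h27, h28, h29, h30, h31, h32, h33, h34, h35, h36, h37, h38, h39, h40, h41, h42, h43, h44, h45, h46, h47⟩ := W_inj h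
  try simp only [map_zero] at *
  · linear_combination (-u5 - t5*(f t5)) * h2 + h44

set_option maxHeartbeats 4000000 in
theorem npF (hθ : ∀ t, (f (f t)) ^ 2 = t) (u5 : K) :
    nP * E f 0 0 0 0 0 0 0 (u5) 0 0 0 0 * nP⁻¹ = E f 0 0 0 0 (u5) 0 0 0 0 0 0 0 := by
  have h2 : (2 : K) = 0 := CharTwo.two_eq_zero
  have hE : E f 0 0 0 0 0 0 0 (u5) 0 0 0 0 = W 0 (0) (0) (0) (0) (0) (0) (0) (0) 0 (0) (0) (0) (0) (0) (0) (0) (0) (0) (0) (u5) (0) (0) ((f u5)^2) := by
    unfold E
    apply W_congr <;> (try simp only [map_zero]) <;> ring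
  rw [hE, nP_W]
  unfold E
  apply W_congr
  · (try simp only [map_add, map_mul, map_pow, map_zero]) <;> linear_combination (0 : K) * h2
  · (try simp only [map_add, map_mul, map_pow, map_zero]) <;> linear_combination (0 : K) * h2
  · (try simp only [map_add, map_mul, map_pow, map_zero]) <;> linear_combination (0 : K) * h2
  · (try simp only [map_add, map_mul, map_pow, map_zero]) <;> linear_combination (0 : K) * h2
  · (try simp only [map_add, map_mul, map_pow, map_zero]) <;> linear_combination (0 : K) * h2
  · (try simp only [map_add, map_mul, map_pow, map_zero]) <;> linear_combination (0 : K) * h2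
  · (try simp only [map_add, map_mul, map_pow, map_zero]) <;> linear_combination (0 : K) * h2
  · (try simp only [map_add, map_mul, map_pow, map_zero]) <;> linear_combination (0 : K) * h2
  · (try simp only [map_add, map_mul, map_pow, map_zero]) <;> linear_combination (0 : K) * h2
  · (try simp only [map_add, map_mul, map_pow, map_zero]) <;> linear_combination (0 : K) * h2
  · (try simp only [map_add, map_mul, map_pow, map_zero]) <;> linear_combination (0 : K) * h2
  · (try simp only [map_add, map_mul, map_pow, map_zero]) <;> linear_combination (0 : K) * h2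
  · (try simp only [map_add, map_mul, map_pow, map_zero]) <;> linear_combination (0 : K) * h2
  · (try simp only [map_add, map_mul, map_pow, map_zero]) <;> linear_combination (0 : K) * h2
  · (try simp only [map_add, map_mul, map_pow, map_zero]) <;> linear_combination (0 : K) * h2
  · (try simp only [map_add, map_mul, map_pow, map_zero]) <;> linear_combination (0 : K) * h2
  · (try simp only [map_add, map_mul, map_pow, map_zero]) <;> linear_combination (0 : K) * h2
  · (try simp only [map_add, map_mul, map_pow, map_zero]) <;> linear_combination (0 : K) * h2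
  · (try simp only [map_add, map_mul, map_pow, map_zero]) <;> linear_combination (0 : K) * h2
  · (try simp only [map_add, map_mul, map_pow, map_zero]) <;> linear_combination (0 : K) * h2
  · (try simp only [map_add, map_mul, map_pow, map_zero]) <;> linear_combination (0 : K) * h2
  · (try simp only [map_add, map_mul, map_pow, map_zero]) <;> linear_combination (0 : K) * h2
  · (try simp only [map_add, map_mul, map_pow, map_zero]) <;> linear_combination (0 : K) * h2
  · (try simp only [map_add, map_mul, map_pow, map_zero]) <;> linear_combination (0 : K) * h2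

set_option maxHeartbeats 4000000 in
theorem ncF (hθ : ∀ t, (f (f t)) ^ 2 = t) (u3 : K) :
    nC * E f 0 0 0 0 (u3) 0 0 0 0 0 0 0 * nC⁻¹ = E f 0 0 0 0 0 0 0 0 0 0 (u3) 0 := by
  have h2 : (2 : K) = 0 := CharTwo.two_eq_zero
  have hE : E f 0 0 0 0 (u3) 0 0 0 0 0 0 0 = W (0) 0 (0) 0 0 (0) 0 (0) (0) (0) (0) (0) (0) (0) (0) (0) (u3) (0) (0) (0) (0) (0) ((f u3)^2) (0) := by
    unfold E
    apply W_congr <;> (try simp only [map_zero]) <;> ring
  rw [hE, nC_W]
  unfold E
  apply W_congr
  · (try simp only [map_add, map_mul, map_pow, map_zero]) <;> linear_combination (0 : K) * h2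
  · (try simp only [map_add, map_mul, map_pow, map_zero]) <;> linear_combination (0 : K) * h2
  · (try simp only [map_add, map_mul, map_pow, map_zero]) <;> linear_combination (0 : K) * h2
  · (try simp only [map_add, map_mul, map_pow, map_zero]) <;> linear_combination (0 : K) * h2
  · (try simp only [map_add, map_mul, map_pow, map_zero]) <;> linear_combination (0 : K) * h2
  · (try simp only [map_add, map_mul, map_pow, map_zero]) <;> linear_combination (0 : K) * h2
  · (try simp only [map_add, map_mul, map_pow, map_zero]) <;> linear_combination (0 : K) * h2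
  · (try simp only [map_add, map_mul, map_pow, map_zero]) <;> linear_combination (0 : K) * h2
  · (try simp only [map_add, map_mul, map_pow, map_zero]) <;> linear_combination (0 : K) * h2
  · (try simp only [map_add, map_mul, map_pow, map_zero]) <;> linear_combination (0 : K) * h2
  · (try simp only [map_add, map_mul, map_pow, map_zero]) <;> linear_combination (0 : K) * h2
  · (try simp only [map_add, map_mul, map_pow, map_zero]) <;> linear_combination (0 : K) * h2
  · (try simp only [map_add, map_mul, map_pow, map_zero]) <;> linear_combination (0 : K) * h2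
  · (try simp only [map_add, map_mul, map_pow, map_zero]) <;> linear_combination (0 : K) * h2
  · (try simp only [map_add, map_mul, map_pow, map_zero]) <;> linear_combination (0 : K) * h2
  · (try simp only [map_add, map_mul, map_pow, map_zero]) <;> linear_combination (0 : K) * h2
  · (try simp only [map_add, map_mul, map_pow, map_zero]) <;> linear_combination (0 : K) * h2
  · (try simp only [map_add, map_mul, map_pow, map_zero]) <;> linear_combination (0 : K) * h2
  · (try simp only [map_add, map_mul, map_pow, map_zero]) <;> linear_combination (0 : K) * h2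
  · (try simp only [map_add, map_mul, map_pow, map_zero]) <;> linear_combination (0 : K) * h2
  · (try simp only [map_add, map_mul, map_pow, map_zero]) <;> linear_combination (0 : K) * h2
  · (try simp only [map_add, map_mul, map_pow, map_zero]) <;> linear_combination (0 : K) * h2
  · (try simp only [map_add, map_mul, map_pow, map_zero]) <;> linear_combination (0 : K) * h2
  · (try simp only [map_add, map_mul, map_pow, map_zero]) <;> linear_combination (0 : K) * h2

set_option maxHeartbeats 4000000 in
theorem npG (hθ : ∀ t, (f (f t)) ^ 2 = t) (u7 : K) :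
    nP * E f 0 0 0 0 0 0 0 0 0 0 (u7) 0 * nP⁻¹ = E f 0 (u7) 0 0 0 0 0 0 0 0 0 0 := by
  have h2 : (2 : K) = 0 := CharTwo.two_eq_zero
  have hE : E f 0 0 0 0 0 0 0 0 0 0 (u7) 0 = W 0 (0) (0) (0) (0) (0) (0) (0) (0) 0 (0) (0) (u7) (0) (0) (0) (0) (0) ((f u7)^2) (0) (0) (0) (0) (0) := by
    unfold E
    apply W_congr <;> (try simp only [map_zero]) <;> ring
  rw [hE, nP_W]
  unfold E
  apply W_congr
  · (try simp only [map_add, map_mul, map_pow, map_zero]) <;> linear_combination (0 : K) * h2
  · (try simp only [map_add, map_mul, map_pow, map_zero]) <;> linear_combination (0 : K) * h2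
  · (try simp only [map_add, map_mul, map_pow, map_zero]) <;> linear_combination (0 : K) * h2
  · (try simp only [map_add, map_mul, map_pow, map_zero]) <;> linear_combination (0 : K) * h2
  · (try simp only [map_add, map_mul, map_pow, map_zero]) <;> linear_combination (0 : K) * h2
  · (try simp only [map_add, map_mul, map_pow, map_zero]) <;> linear_combination (0 : K) * h2
  · (try simp only [map_add, map_mul, map_pow, map_zero]) <;> linear_combination (0 : K) * h2
  · (try simp only [map_add, map_mul, map_pow, map_zero]) <;> linear_combination (0 : K) * h2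
  · (try simp only [map_add, map_mul, map_pow, map_zero]) <;> linear_combination (0 : K) * h2
  · (try simp only [map_add, map_mul, map_pow, map_zero]) <;> linear_combination (0 : K) * h2
  · (try simp only [map_add, map_mul, map_pow, map_zero]) <;> linear_combination (0 : K) * h2
  · (try simp only [map_add, map_mul, map_pow, map_zero]) <;> linear_combination (0 : K) * h2
  · (try simp only [map_add, map_mul, map_pow, map_zero]) <;> linear_combination (0 : K) * h2
  · (try simp only [map_add, map_mul, map_pow, map_zero]) <;> linear_combination (0 : K) * h2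
  · (try simp only [map_add, map_mul, map_pow, map_zero]) <;> linear_combination (0 : K) * h2
  · (try simp only [map_add, map_mul, map_pow, map_zero]) <;> linear_combination (0 : K) * h2
  · (try simp only [map_add, map_mul, map_pow, map_zero]) <;> linear_combination (0 : K) * h2
  · (try simp only [map_add, map_mul, map_pow, map_zero]) <;> linear_combination (0 : K) * h2
  · (try simp only [map_add, map_mul, map_pow, map_zero]) <;> linear_combination (0 : K) * h2
  · (try simp only [map_add, map_mul, map_pow, map_zero]) <;> linear_combination (0 : K) * h2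
  · (try simp only [map_add, map_mul, map_pow, map_zero]) <;> linear_combination (0 : K) * h2
  · (try simp only [map_add, map_mul, map_pow, map_zero]) <;> linear_combination (0 : K) * h2
  · (try simp only [map_add, map_mul, map_pow, map_zero]) <;> linear_combination (0 : K) * h2
  · (try simp only [map_add, map_mul, map_pow, map_zero]) <;> linear_combination (0 : K) * h2

end Steps

end Cfsg.Agent.Lib.F4Inv50
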