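import Cfsg.Agent.Lib.F4Inv50E

/-!
# The involutions of `²F₄(q)`: reduction to two representatives
-/

set_option autoImplicit false
set_option linter.unusedSectionVars false
set_option linter.unusedVariables false
set_option linter.unusedSimpArgs false
set_option maxRecDepth 100000

namespace Cfsg.Agent.Lib.F4Inv50

open Cfsg Cfsg.Lie Cfsg.Agent.Lib.Chev Cfsg.Agent.Lib.Chev.TwF4

section Conj

variable {K : Type*} [Field K] {e : ℕ}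

/-- Conjugacy in the twisted group. -/
def Cj (e : ℕ) (u v : GL chevF4.Idx K) : Prop := ∃ h ∈ twistedF4 K e, h * u * h⁻¹ = v

theorem Cj.symm {u v : GL chevF4.Idx K} (h : Cj e u v) : Cj e v u := by
  obtain ⟨n, hn, rfl⟩ := h
  exact ⟨n⁻¹, inv_mem hn, by group⟩

theorem Cj.trans {u v w : GL chevF4.Idx K} (h : Cj e u v) (h' : Cj e v w) : Cj e u w := by
  obtain ⟨n, hn, rfl⟩ := h
  obtain ⟨m, hm, rfl⟩ := h'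
  exact ⟨m * n, mul_mem hm hn, by group⟩

theorem Cj.sq {u v : GL chevF4.Idx K} (h : Cj e u v) (hu : u * u = 1) : v * v = 1 := by
  obtain ⟨n, hn, rfl⟩ := h
  calc n * u * n⁻¹ * (n * u * n⁻¹) = n * (u * u) * n⁻¹ := by group
    _ = 1 := by rw [hu]; group

theorem Cj_of_mul {h u v : GL chevF4.Idx K} (hh : h ∈ twistedF4 K e) (hm : h * u = v * h) : Cj e u v :=
  ⟨h, hh, by rw [hm]; group⟩

variable [CharP K 2]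

theorem nP_mem (he : e ≠ 0) : (nP : GL chevF4.Idx K) ∈ twistedF4 K e := by
  have h2 : ((2 : ℕ) : K) = 0 := CharP.cast_eq_zero K 2
  have h := wordN_block (K := K) h2 he (b := [0, 3]) (Or.inl rfl)
  have e1 : hF.wordN (F := K) [0, 3] = nP := rfl
  rwa [e1] at h

theorem nC_mem (he : e ≠ 0) : (nC : GL chevF4.Idx K) ∈ twistedF4 K e := by
  have h2 : ((2 : ℕ) : K) = 0 := CharP.cast_eq_zero K 2
  have h := wordN_block (K := K) h2 he (b := [1, 2, 1, 2]) (Or.inr rfl)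
  have e1 : hF.wordN (F := K) [1, 2, 1, 2] = nC := rfl
  rwa [e1] at h

end Conj

section Chain

variable {K : Type*} [Field K] [CharP K 2] [Fintype K] {e : ℕ} (d : Dat K e)

include d in
theorem cjP {u v : GL chevF4.Idx K} (h : nP * u * nP⁻¹ = v) : Cj e u v := ⟨nP, nP_mem d.he, h⟩
include d in
theorem cjC {u v : GL chevF4.Idx K} (h : nC * u * nC⁻¹ = v) : Cj e u v := ⟨nC, nC_mem d.he, h⟩

theorem cjS {h u v : GL chevF4.Idx K} (m : h ∈ twistedF4 K e) (s : h * u = v * h) : Cj e u v := Cj_of_mul m s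

theorem fne {a : K} (h : a ≠ 0) : d.f a ≠ 0 := by
  rw [Ne, map_eq_zero]
  exact h

theorem of_f {a : K} (h : d.f a = 0) : a = 0 := by
  rwa [map_eq_zero] at h

theorem solve2 {c : K} (hc : c ≠ 0) (t : K) : ∃ w, t = c * (d.f w) ^ 2 :=
  ⟨d.f (t / c), by rw [d.hθ]; field_simp⟩

theorem solve1 {c : K} (hc : c ≠ 0) (t : K) : ∃ y, t = c * y := ⟨t / c, by field_simp⟩

theorem solve1' {c : K} (hc : c ≠ 0) (t : K) : ∃ y, t = y * c := ⟨t / c, by field_simp⟩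

theorem solvef {c : K} (hc : c ≠ 0) (t : K) : ∃ y, t = c * d.f y :=
  ⟨d.f.symm (t / c), by simp only [RingEquiv.apply_symm_apply]; field_simp⟩

theorem solve2' {c : K} (hc : c ≠ 0) (t : K) : ∃ w, t = w * c ^ 2 :=
  ⟨t / c ^ 2, by field_simp⟩

/-! Chain A -/

theorem lA6 {v8 : K} (hv : v8 ≠ 0) (u5 : K) :
    Cj e (E d.f 0 0 0 0 0 0 0 u5 0 0 0 v8) (E d.f 0 0 0 0 0 0 0 0 0 0 0 v8) := by
  obtain ⟨w, rfl⟩ := solve1' (fne d hv) u5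
  exact cjS (E_mem_G1 d _ _ _ _ _ _ _ _ _ _ _ _) (stA6 d.f d.hθ v8 w)

theorem lA5 {v8 : K} (hv : v8 ≠ 0) (u5 u7 : K) :
    Cj e (E d.f 0 0 0 0 0 0 0 u5 0 0 u7 v8) (E d.f 0 0 0 0 0 0 0 0 0 0 0 v8) := by
  obtain ⟨z, rfl⟩ := solvef d (fne d hv) u7
  exact (cjS (E_mem_G1 d _ _ _ _ _ _ _ _ _ _ _ _) (stA5 d.f d.hθ u5 v8 z)).trans (lA6 d hv _)

theorem lA4 {v8 : K} (hv : v8 ≠ 0) (u5 v6 u7 : K) :
    Cj e (E d.f 0 0 0 0 0 0 0 u5 v6 0 u7 v8) (E d.f 0 0 0 0 0 0 0 0 0 0 0 v8) := by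
  obtain ⟨y, rfl⟩ := solve2 d hv v6
  exact (cjS (E_mem_G1 d _ _ _ _ _ _ _ _ _ _ _ _) (stA4 d.f d.hθ u5 u7 v8 y)).trans (lA5 d hv _ _)

theorem lA3 {v8 : K} (hv : v8 ≠ 0) (v4 u5 v6 u7 : K) :
    Cj e (E d.f 0 0 0 0 0 v4 0 u5 v6 0 u7 v8) (E d.f 0 0 0 0 0 0 0 0 0 0 0 v8) := by
  obtain ⟨y, rfl⟩ := solve2 d hv v4
  exact (cjS (E_mem_G1 d _ _ _ _ _ _ _ _ _ _ _ _) (stA3 d.f d.hθ u5 v6 u7 v8 y)).trans (lA4 d hv _ _ _)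

theorem lA2 {v8 : K} (hv : v8 ≠ 0) (v2 u3 v4 t5 u5 v6 u7 : K)
    (hs : E d.f 0 0 v2 0 u3 v4 t5 u5 v6 0 u7 v8 * E d.f 0 0 v2 0 u3 v4 t5 u5 v6 0 u7 v8 = 1) :
    Cj e (E d.f 0 0 v2 0 u3 v4 t5 u5 v6 0 u7 v8) (E d.f 0 0 0 0 0 0 0 0 0 0 0 v8) := by
  obtain ⟨h1, h2, h3⟩ := sqA2 d.f d.hθ hs
  have ht5 : t5 = 0 := of_f d ((mul_eq_zero.1 h1).resolve_right (fne d hv))
  have hv2 : v2 = 0 := of_f d ((mul_eq_zero.1 h2).resolve_left hv)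
  subst ht5 hv2
  have hu3 : u3 = 0 := by
    simp only [map_zero, mul_zero, zero_mul, add_zero, zero_add] at h3
    exact (mul_eq_zero.1 h3).resolve_right (fne d hv)
  subst hu3
  exact lA3 d hv _ _ _ _

theorem lA1 {v8 : K} (hv : v8 ≠ 0) (v2 t3 u3 v4 t5 u5 v6 u7 : K)
    (hs : E d.f 0 0 v2 t3 u3 v4 t5 u5 v6 0 u7 v8 * E d.f 0 0 v2 t3 u3 v4 t5 u5 v6 0 u7 v8 = 1) :
    Cj e (E d.f 0 0 v2 t3 u3 v4 t5 u5 v6 0 u7 v8) (E d.f 0 0 0 0 0 0 0 0 0 0 0 v8) := by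
  obtain ⟨w, rfl⟩ := solve2 d hv t3
  have c := cjS (E_mem_G1 d _ _ _ _ _ _ _ _ _ _ _ _) (stA2 d.f d.hθ v2 u3 v4 t5 u5 v6 u7 v8 w)
  exact c.trans (lA2 d hv _ _ _ _ _ _ _ (c.sq hs))

theorem lA0 {v8 : K} (hv : v8 ≠ 0) (v2 t3 u3 v4 t5 u5 v6 t7 u7 : K)
    (hs : E d.f 0 0 v2 t3 u3 v4 t5 u5 v6 t7 u7 v8 * E d.f 0 0 v2 t3 u3 v4 t5 u5 v6 t7 u7 v8 = 1) :
    Cj e (E d.f 0 0 v2 t3 u3 v4 t5 u5 v6 t7 u7 v8) (E d.f 0 0 0 0 0 0 0 0 0 0 0 v8) := by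
  obtain ⟨y, rfl⟩ := solve1 hv t7
  have c := cjS (E_mem_G1 d _ _ _ _ _ _ _ _ _ _ _ _) (stA1 d.f d.hθ v2 t3 u3 v4 t5 u5 v6 u7 v8 y)
  exact c.trans (lA1 d hv _ _ _ _ _ _ _ _ (c.sq hs))

theorem t1_zero {t1 u1 v2 t3 u3 v4 t5 u5 v6 t7 u7 v8 : K}
    (hs : E d.f t1 u1 v2 t3 u3 v4 t5 u5 v6 t7 u7 v8 * E d.f t1 u1 v2 t3 u3 v4 t5 u5 v6 t7 u7 v8 = 1) : t1 = 0 := by
  have h1 := sq1 d.f d.hθ hs
  rcases mul_eq_zero.1 h1 with h | h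
  · exact h
  · exact of_f d h

theorem lA {v8 : K} (hv : v8 ≠ 0) (t1 u1 v2 t3 u3 v4 t5 u5 v6 t7 u7 : K)
    (hs : E d.f t1 u1 v2 t3 u3 v4 t5 u5 v6 t7 u7 v8 * E d.f t1 u1 v2 t3 u3 v4 t5 u5 v6 t7 u7 v8 = 1) :
    Cj e (E d.f t1 u1 v2 t3 u3 v4 t5 u5 v6 t7 u7 v8) (E d.f 0 0 0 0 0 0 0 0 0 0 0 v8) := by
  have h1 := t1_zero d hs
  subst h1
  obtain ⟨h2, -⟩ := sq2 d.f d.hθ hs
  have h3 : u1 = 0 := (mul_eq_zero.1 h2).resolve_right hv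
  subst h3
  exact lA0 d hv _ _ _ _ _ _ _ _ _ hs

/-! The representatives -/

/-- The first representative. -/
noncomputable def T1 (f : K ≃+* K) : GL chevF4.Idx K := E f 0 0 0 0 0 0 0 0 0 0 0 1

/-- The second representative. -/
noncomputable def T2 (f : K ≃+* K) : GL chevF4.Idx K := E f 0 1 0 0 0 0 0 0 0 0 0 0

theorem E_pP (v : K) : E d.f 0 0 0 0 0 0 0 0 0 0 0 v = pP d v := by
  have h1 : x 33 (d.f v) * x 24 v = x 24 v * x 33 (d.f v) := by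
    have := s_33_24 (K := K) v (d.f v) 1
    simpa using this
  have e1 : pP d v = x 33 (d.f v) * x 24 v := rfl
  rw [e1, h1]
  unfold E W
  simp [x_zero]

theorem E_bP (u : K) : E d.f 0 u 0 0 0 0 0 0 0 0 0 0 = bP d 0 u := by
  have e1 : bP d 0 u = x 27 (d.f 0) * (x 25 0 * (x 28 (d.f 0 * 0 + u) * x 30 (d.g u))) := rfl
  rw [e1, d.g_apply]
  unfold E W
  simp [x_zero]

theorem lP {v8 : K} (hv : v8 ≠ 0) : Cj e (E d.f 0 0 0 0 0 0 0 0 0 0 0 v8) (T1 d.f) := by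
  let p : Kˣ × Kˣ := (1, Units.mk0 v8 hv)
  refine ⟨tor RootF4T.R chevF4 (d.cOf p), d.tor_mem p, ?_⟩
  rw [T1, E_pP, E_pP, d.tor_pP]
  congr 1
  simp [p, hv]

theorem lU {u1 : K} (hu : u1 ≠ 0) : Cj e (E d.f 0 u1 0 0 0 0 0 0 0 0 0 0) (T2 d.f) := by
  let p : Kˣ × Kˣ := (1, (Units.mk0 u1 hu)⁻¹)
  refine ⟨tor RootF4T.R chevF4 (d.cOf p), d.tor_mem p, ?_⟩
  rw [T2, E_bP, E_bP, d.tor_bP]
  congr 1
  · simp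
  · simp [p, hu]

/-- The conclusion. -/
def Res (d : Dat K e) (g : GL chevF4.Idx K) : Prop := Cj e g (T1 d.f) ∨ Cj e g (T2 d.f)

theorem Res.of_cj {g g' : GL chevF4.Idx K} (c : Cj e g g') (h : Res d g') : Res d g := by
  rcases h with h | h
  · exact Or.inl (c.trans h)
  · exact Or.inr (c.trans h)

theorem res_lA {v8 : K} (hv : v8 ≠ 0) (t1 u1 v2 t3 u3 v4 t5 u5 v6 t7 u7 : K)
    (hs : E d.f t1 u1 v2 t3 u3 v4 t5 u5 v6 t7 u7 v8 * E d.f t1 u1 v2 t3 u3 v4 t5 u5 v6 t7 u7 v8 = 1) :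
    Res d (E d.f t1 u1 v2 t3 u3 v4 t5 u5 v6 t7 u7 v8) :=
  Or.inl ((lA d hv _ _ _ _ _ _ _ _ _ _ _ hs).trans (lP d hv))

/-! Chain C -/

theorem lC3 {v4 u7 : K} (hv : v4 ≠ 0)
    (hs : E d.f 0 0 0 0 0 v4 0 0 0 0 u7 0 * E d.f 0 0 0 0 0 v4 0 0 0 0 u7 0 = 1) :
    Res d (E d.f 0 0 0 0 0 v4 0 0 0 0 u7 0) := by
  have c1 := cjC d (ncC3 d.f d.hθ v4 u7)
  have c2 := cjP d (npC4 d.f d.hθ u7 v4)
  have c3 := cjC d (ncC5 d.f d.hθ v4 u7)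
  have c := (c1.trans c2).trans c3
  exact Res.of_cj d c (res_lA d hv _ _ _ _ _ _ _ _ _ _ _ (c.sq hs))

theorem lC2 {v4 u5 u7 : K} (hv : v4 ≠ 0) (hu : u7 ≠ 0)
    (hs : E d.f 0 0 0 0 0 v4 0 u5 0 0 u7 0 * E d.f 0 0 0 0 0 v4 0 u5 0 0 u7 0 = 1) :
    Res d (E d.f 0 0 0 0 0 v4 0 u5 0 0 u7 0) := by
  obtain ⟨y, rfl⟩ := solvef d hu u5
  have c := cjS (E_mem_G1 d _ _ _ _ _ _ _ _ _ _ _ _) (stC2 d.f d.hθ v4 u7 y)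
  exact Res.of_cj d c (lC3 d hv (c.sq hs))

theorem lC1 {u3 u7 : K} (hu : u3 ≠ 0) (hu7 : u7 ≠ 0)
    (hs : E d.f 0 0 0 0 u3 0 0 0 0 0 u7 0 * E d.f 0 0 0 0 u3 0 0 0 0 0 u7 0 = 1) :
    Res d (E d.f 0 0 0 0 u3 0 0 0 0 0 u7 0) := by
  obtain ⟨w, rfl⟩ := solve2 d hu7 u3
  have hw : w ≠ 0 := by
    rintro rfl
    simp at hu
  have c := cjS (E_mem_G1 d _ _ _ _ _ _ _ _ _ _ _ _) (stC1 d.f d.hθ u7 w)
  refine Res.of_cj d c (lC2 d ?_ hu7 (c.sq hs))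
  exact mul_ne_zero (pow_ne_zero _ (fne d hu7)) (pow_ne_zero _ (fne d hw))

theorem lB5 {u1 u5 : K} (hu : u1 ≠ 0)
    (hs : E d.f 0 u1 0 0 0 0 0 u5 0 0 0 0 * E d.f 0 u1 0 0 0 0 0 u5 0 0 0 0 = 1) :
    Res d (E d.f 0 u1 0 0 0 0 0 u5 0 0 0 0) := by
  by_cases h5 : u5 = 0
  · subst h5
    exact Or.inr (lU d hu)
  · have c := cjP d (npB5 d.f d.hθ u1 u5)
    exact Res.of_cj d c (lC1 d h5 hu (c.sq hs))

/-! Chain B -/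

theorem lB4 {u1 : K} (hu : u1 ≠ 0) (u3 u5 : K)
    (hs : E d.f 0 u1 0 0 u3 0 0 u5 0 0 0 0 * E d.f 0 u1 0 0 u3 0 0 u5 0 0 0 0 = 1) :
    Res d (E d.f 0 u1 0 0 u3 0 0 u5 0 0 0 0) := by
  obtain ⟨y, rfl⟩ := solvef d hu u3
  have c := cjS (E_mem_G1 d _ _ _ _ _ _ _ _ _ _ _ _) (stB4 d.f d.hθ u1 u5 y)
  exact Res.of_cj d c (lB5 d hu (c.sq hs))

theorem lB3 {u1 : K} (hu : u1 ≠ 0) (u3 v4 u5 : K)
    (hs : E d.f 0 u1 0 0 u3 v4 0 u5 0 0 0 0 * E d.f 0 u1 0 0 u3 v4 0 u5 0 0 0 0 = 1) :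
    Res d (E d.f 0 u1 0 0 u3 v4 0 u5 0 0 0 0) := by
  have hfu : (d.f u1) ^ 2 ≠ 0 := pow_ne_zero _ (fne d hu)
  obtain ⟨w, rfl⟩ := solve2 d hfu v4
  have c := cjS (E_mem_G1 d _ _ _ _ _ _ _ _ _ _ _ _) (stB3 d.f d.hθ u1 u3 u5 w)
  exact Res.of_cj d c (lB4 d hu _ _ (c.sq hs))

theorem lB2 {u1 : K} (hu : u1 ≠ 0) (v2 u3 v4 u5 : K)
    (hs : E d.f 0 u1 v2 0 u3 v4 0 u5 0 0 0 0 * E d.f 0 u1 v2 0 u3 v4 0 u5 0 0 0 0 = 1) :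
    Res d (E d.f 0 u1 v2 0 u3 v4 0 u5 0 0 0 0) := by
  have hfu : (d.f u1) ^ 2 ≠ 0 := pow_ne_zero _ (fne d hu)
  obtain ⟨y, rfl⟩ := solve1' hfu v2
  have c := cjS (E_mem_G1 d _ _ _ _ _ _ _ _ _ _ _ _) (stB2 d.f d.hθ u1 u3 v4 u5 y)
  exact Res.of_cj d c (lB3 d hu _ _ _ (c.sq hs))

theorem lB1 {u1 : K} (hu : u1 ≠ 0) (v2 u3 v4 t5 u5 v6 u7 : K)
    (hs : E d.f 0 u1 v2 0 u3 v4 t5 u5 v6 0 u7 0 * E d.f 0 u1 v2 0 u3 v4 t5 u5 v6 0 u7 0 = 1) :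
    Res d (E d.f 0 u1 v2 0 u3 v4 t5 u5 v6 0 u7 0) := by
  obtain ⟨h1, h2, h3⟩ := sqB1 d.f d.hθ hs
  have hu7 : u7 = 0 := (mul_eq_zero.1 h1).resolve_left hu
  subst hu7
  have ht5 : t5 = 0 := by
    simp only [map_zero, zero_mul, mul_zero, add_zero, zero_add, ne_eq, OfNat.ofNat_ne_zero, not_false_eq_true, zero_pow] at h2
    rcases mul_eq_zero.1 h2 with h | h
    · exact h
    · exact of_f d h
  subst ht5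
  have hv6 : v6 = 0 := by
    simp only [map_zero, zero_mul, mul_zero, add_zero, zero_add] at h3
    exact of_f d ((mul_eq_zero.1 h3).resolve_left hu)
  subst hv6
  exact lB2 d hu _ _ _ _ hs

theorem lB0 {u1 : K} (hu : u1 ≠ 0) (v2 t3 u3 v4 t5 u5 v6 u7 : K)
    (hs : E d.f 0 u1 v2 t3 u3 v4 t5 u5 v6 0 u7 0 * E d.f 0 u1 v2 t3 u3 v4 t5 u5 v6 0 u7 0 = 1) :
    Res d (E d.f 0 u1 v2 t3 u3 v4 t5 u5 v6 0 u7 0) := by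
  have hfu : (d.f u1) ^ 2 ≠ 0 := pow_ne_zero _ (fne d hu)
  obtain ⟨y, rfl⟩ := solve1' hfu t3
  have c := cjS (E_mem_G1 d _ _ _ _ _ _ _ _ _ _ _ _) (stB1 d.f d.hθ u1 v2 u3 v4 t5 u5 v6 u7 y)
  exact Res.of_cj d c (lB1 d hu _ _ _ _ _ _ _ (c.sq hs))

theorem lB {t1 u1 : K} (hne : t1 ≠ 0 ∨ u1 ≠ 0) (v2 t3 u3 v4 t5 u5 v6 t7 u7 : K)
    (hs : E d.f t1 u1 v2 t3 u3 v4 t5 u5 v6 t7 u7 0 * E d.f t1 u1 v2 t3 u3 v4 t5 u5 v6 t7 u7 0 = 1) :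
    Res d (E d.f t1 u1 v2 t3 u3 v4 t5 u5 v6 t7 u7 0) := by
  have h1 := t1_zero d hs
  subst h1
  have hu : u1 ≠ 0 := by
    rcases hne with h | h
    · exact absurd rfl h
    · exact h
  obtain ⟨-, h2⟩ := sq2 d.f d.hθ hs
  have ht7 : t7 = 0 := by
    simp only [mul_zero, add_zero] at h2
    exact (mul_eq_zero.1 h2).resolve_right (pow_ne_zero _ (fne d hu))
  subst ht7
  exact lB0 d hu _ _ _ _ _ _ _ _ hs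

/-! The remaining case -/

theorem lD5 {t5 u5 : K} (hne : E d.f 0 0 0 0 0 0 t5 u5 0 0 0 0 ≠ 1)
    (hs : E d.f 0 0 0 0 0 0 t5 u5 0 0 0 0 * E d.f 0 0 0 0 0 0 t5 u5 0 0 0 0 = 1) :
    Res d (E d.f 0 0 0 0 0 0 t5 u5 0 0 0 0) := by
  have h1 := sqF d.f d.hθ hs
  have ht5 : t5 = 0 := by
    rcases mul_eq_zero.1 h1 with h | h
    · exact h
    · exact of_f d h
  subst ht5
  have hu : u5 ≠ 0 := by
    rintro rfl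
    exact hne (E_zero d.f)
  have c1 := cjP d (npF d.f d.hθ u5)
  have c2 := cjC d (ncF d.f d.hθ u5)
  have c3 := cjP d (npG d.f d.hθ u5)
  exact Or.inr (((c1.trans c2).trans c3).trans (lU d hu))

theorem lD4 {v4 t5 u5 : K} (hne : E d.f 0 0 0 0 0 v4 t5 u5 0 0 0 0 ≠ 1)
    (hs : E d.f 0 0 0 0 0 v4 t5 u5 0 0 0 0 * E d.f 0 0 0 0 0 v4 t5 u5 0 0 0 0 = 1) :
    Res d (E d.f 0 0 0 0 0 v4 t5 u5 0 0 0 0) := by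
  by_cases hv : v4 = 0
  · subst hv
    exact lD5 d hne hs
  · have c1 := cjC d (ncD d.f d.hθ v4 t5 u5)
    have c2 := cjP d (npD d.f d.hθ t5 u5 v4)
    have c3 := cjC d (ncE d.f d.hθ v4 t5 u5)
    have c := (c1.trans c2).trans c3
    exact Res.of_cj d c (res_lA d hv _ _ _ _ _ _ _ _ _ _ _ (c.sq hs))

theorem lD3 {v4 t5 u5 v6 : K} (hne : E d.f 0 0 0 0 0 v4 t5 u5 v6 0 0 0 ≠ 1)
    (hs : E d.f 0 0 0 0 0 v4 t5 u5 v6 0 0 0 * E d.f 0 0 0 0 0 v4 t5 u5 v6 0 0 0 = 1) :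
    Res d (E d.f 0 0 0 0 0 v4 t5 u5 v6 0 0 0) := by
  by_cases hv : v6 = 0
  · subst hv
    exact lD4 d hne hs
  · have c1 := cjP d (npC d.f d.hθ v4 t5 u5 v6)
    have c2 := cjC d (ncC d.f d.hθ v6 t5 u5 v4)
    have c := c1.trans c2
    exact Res.of_cj d c (res_lA d hv _ _ _ _ _ _ _ _ _ _ _ (c.sq hs))

theorem lD2 {t3 u3 v4 t5 u5 v6 : K} (hne : E d.f 0 0 0 t3 u3 v4 t5 u5 v6 0 0 0 ≠ 1)
    (hs : E d.f 0 0 0 t3 u3 v4 t5 u5 v6 0 0 0 * E d.f 0 0 0 t3 u3 v4 t5 u5 v6 0 0 0 = 1) :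
    Res d (E d.f 0 0 0 t3 u3 v4 t5 u5 v6 0 0 0) := by
  by_cases h3 : t3 = 0 ∧ u3 = 0
  · obtain ⟨rfl, rfl⟩ := h3
    exact lD3 d hne hs
  · have c1 := cjC d (ncB d.f d.hθ t3 u3 v4 t5 u5 v6)
    have c2 := cjP d (npB d.f d.hθ v6 t5 (u5 + d.f t3 * d.f v6) (v4 + t3 * t5) t3 u3)
    have c := c1.trans c2
    refine Res.of_cj d c (lB d ?_ _ _ _ _ _ _ _ _ _ (c.sq hs))
    by_contra h
    push Not at h
    exact h3 h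

theorem lD1 {t3 u3 v4 t5 u5 v6 t7 u7 : K} (hne : E d.f 0 0 0 t3 u3 v4 t5 u5 v6 t7 u7 0 ≠ 1)
    (hs : E d.f 0 0 0 t3 u3 v4 t5 u5 v6 t7 u7 0 * E d.f 0 0 0 t3 u3 v4 t5 u5 v6 t7 u7 0 = 1) :
    Res d (E d.f 0 0 0 t3 u3 v4 t5 u5 v6 t7 u7 0) := by
  by_cases h3 : t7 = 0 ∧ u7 = 0
  · obtain ⟨rfl, rfl⟩ := h3
    exact lD2 d hne hs
  · have c := cjP d (npA d.f d.hθ t3 u3 v4 t5 u5 v6 t7 u7)
    refine Res.of_cj d c (lB d ?_ _ _ _ _ _ _ _ _ _ (c.sq hs))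
    by_contra h
    push Not at h
    exact h3 h

theorem lD0 {v2 t3 u3 v4 t5 u5 v6 t7 u7 : K} (hne : E d.f 0 0 v2 t3 u3 v4 t5 u5 v6 t7 u7 0 ≠ 1)
    (hs : E d.f 0 0 v2 t3 u3 v4 t5 u5 v6 t7 u7 0 * E d.f 0 0 v2 t3 u3 v4 t5 u5 v6 t7 u7 0 = 1) :
    Res d (E d.f 0 0 v2 t3 u3 v4 t5 u5 v6 t7 u7 0) := by
  by_cases hv : v2 = 0
  · subst hv
    exact lD1 d hne hs
  · have c := cjC d (ncA d.f d.hθ v2 t3 u3 v4 t5 u5 v6 t7 u7)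
    exact Res.of_cj d c (res_lA d hv _ _ _ _ _ _ _ _ _ _ _ (c.sq hs))

/-- Every involution of the Sylow subgroup is conjugate to a representative. -/
theorem reduce {t1 u1 v2 t3 u3 v4 t5 u5 v6 t7 u7 v8 : K}
    (hne : E d.f t1 u1 v2 t3 u3 v4 t5 u5 v6 t7 u7 v8 ≠ 1)
    (hs : E d.f t1 u1 v2 t3 u3 v4 t5 u5 v6 t7 u7 v8 * E d.f t1 u1 v2 t3 u3 v4 t5 u5 v6 t7 u7 v8 = 1) :
    Res d (E d.f t1 u1 v2 t3 u3 v4 t5 u5 v6 t7 u7 v8) := by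
  by_cases hv : v8 = 0
  · subst hv
    by_cases h1 : t1 = 0 ∧ u1 = 0
    · obtain ⟨rfl, rfl⟩ := h1
      exact lD0 d hne hs
    · refine lB d ?_ _ _ _ _ _ _ _ _ _ hs
      by_contra h
      push Not at h
      exact h1 h
  · exact res_lA d hv _ _ _ _ _ _ _ _ _ _ _ hs

end Chain

end Cfsg.Agent.Lib.F4Inv50
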