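import Cfsg.Agent.Lib.F4Inv50G
import Cfsg.Agent.Lib.Chev.TwF4P

/-!
# The involutions of `²F₄(q)`: the two classes
-/

set_option autoImplicit false
set_option linter.unusedSectionVars false
set_option linter.unusedVariables false
set_option linter.unusedSimpArgs false
set_option maxRecDepth 100000

namespace Cfsg.Agent.Lib.F4Inv50

open Cfsg Cfsg.Lie Cfsg.Agent.Lib.Chev Cfsg.Agent.Lib.Chev.TwF4

section NonConj

variable {K : Type*} [Field K] [CharP K 2] (f : K ≃+* K)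

/-- The canonical map from the prime field. -/
noncomputable def phi : ZMod 2 →+* K := ZMod.castHom (dvd_refl 2) K

theorem t1_eq : T1 f = x 24 1 * x 33 1 := by
  unfold T1 E W
  simp [x_zero]

theorem t2_eq : T2 f = x 28 1 * x 30 1 := by
  unfold T2 E W
  simp [x_zero]

theorem x_val (r : ℕ) : (chevF4.x (ZMod 2) r 1).map (phi (K := K)) = chevF4.x K r 1 := by
  have h2 := ChevFix.x_map chevF4 (phi (K := K)) r 1
  rwa [map_one] at h2

theorem t_val (a b : ℕ) : ((x a 1 * x b 1 : GL chevF4.Idx K) : Matrix chevF4.Idx chevF4.Idx K) - 1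
    = (chevF4.x (ZMod 2) a 1 * chevF4.x (ZMod 2) b 1 - 1).map (phi (K := K)) := by
  have e : ((x a (1 : K) * x b 1 : GL chevF4.Idx K) : Matrix chevF4.Idx chevF4.Idx K)
      = chevF4.x K a 1 * chevF4.x K b 1 := rfl
  have e2 : (chevF4.x (ZMod 2) a 1 * chevF4.x (ZMod 2) b 1).map (phi (K := K))
      = chevF4.x K a 1 * chevF4.x K b 1 := by
    rw [Matrix.map_mul, x_val, x_val]
  rw [e, ← e2]
  generalize chevF4.x (ZMod 2) a 1 * chevF4.x (ZMod 2) b 1 = M
  ext i j
  simp [Matrix.sub_apply, Matrix.one_apply, apply_ite (phi (K := K))]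

theorem rank_t2 : (((T2 f : GL chevF4.Idx K) : Matrix chevF4.Idx chevF4.Idx K) - 1).rank ≤ 21 := by
  rw [t2_eq, t_val, A_fact, Matrix.map_mul]
  refine (Matrix.rank_mul_le_left _ _).trans ?_
  simpa using Matrix.rank_le_card_width (Pm.map (phi (K := K)))

theorem rank_t1 : 22 ≤ (((T1 f : GL chevF4.Idx K) : Matrix chevF4.Idx chevF4.Idx K) - 1).rank := by
  rw [t1_eq, t_val]
  refine le_trans ?_ (Matrix.rank_submatrix_le _ rowf colf)
  have e : ((chevF4.x (ZMod 2) 24 1 * chevF4.x (ZMod 2) 33 1 - 1).map (phi (K := K))).submatrix rowf colf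
      = S0.map (phi (K := K)) := by
    rw [← B_fact]
    rfl
  rw [e]
  have hu : IsUnit (S0.map (phi (K := K))) := by
    refine IsUnit.of_mul_eq_one (S1.map (phi (K := K))) ?_
    rw [← Matrix.map_mul, S_inv]
    ext i j
    simp [Matrix.one_apply, apply_ite (phi (K := K))]
  rw [Matrix.rank_of_isUnit _ hu]
  simp

theorem not_conj' (h : GL chevF4.Idx K) : h * T2 f * h⁻¹ ≠ T1 f := by
  intro e
  have h1 := rank_t2 (K := K) f
  have h2 := rank_t1 (K := K) f
  rw [← e] at h2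
  have e2 : ((h * T2 f * h⁻¹ : GL chevF4.Idx K) : Matrix chevF4.Idx chevF4.Idx K) - 1
      = (h : Matrix chevF4.Idx chevF4.Idx K) * (((T2 f : GL chevF4.Idx K) : Matrix chevF4.Idx chevF4.Idx K) - 1)
        * ((h⁻¹ : GL chevF4.Idx K) : Matrix chevF4.Idx chevF4.Idx K) := by
    rw [mul_sub, sub_mul, mul_one, Units.val_mul, Units.val_mul]
    simp
  rw [e2] at h2
  have h3 := (Matrix.rank_mul_le_left ((h : Matrix chevF4.Idx chevF4.Idx K) * (((T2 f : GL chevF4.Idx K) : Matrix chevF4.Idx chevF4.Idx K) - 1))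
    ((h⁻¹ : GL chevF4.Idx K) : Matrix chevF4.Idx chevF4.Idx K))
  have h4 := Matrix.rank_mul_le_right (h : Matrix chevF4.Idx chevF4.Idx K) (((T2 f : GL chevF4.Idx K) : Matrix chevF4.Idx chevF4.Idx K) - 1)
  omega

theorem not_conj (h : GL chevF4.Idx K) : h * T1 f * h⁻¹ ≠ T2 f := by
  intro e
  apply not_conj' f h⁻¹
  rw [← e]
  group

end NonConj

section Sylow

variable {K : Type*} [Field K] [CharP K 2] [Fintype K] {e : ℕ} (d : Dat K e)

include d in
theorem exists_conj_into_U (g : ↥(twistedF4 K e)) (hg : orderOf g = 2) :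
    ∃ h : ↥(twistedF4 K e), ((h * g * h⁻¹ : ↥(twistedF4 K e)) : GL chevF4.Idx K) ∈ chevF4.posUnipotent K := by
  classical
  have : Fact (Nat.Prime 2) := ⟨Nat.prime_two⟩
  obtain ⟨n, hn2, hn⟩ := FiniteField.card K 2
  set Q := Fintype.card K with hQ
  have hn0 : (n : ℕ) ≠ 0 := n.ne_zero
  have h2Q : 2 ∣ Q := by
    rw [hn]
    exact dvd_pow_self 2 hn0
  have hQ1 : 1 ≤ Q := by
    rw [hn]
    exact Nat.one_le_pow _ _ (by norm_num)
  let P : Subgroup ↥(twistedF4 K e) := (chevF4.posUnipotent K ⊓ twistedF4 K e).subgroupOf (twistedF4 K e)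
  have hP : Nat.card P = Q ^ 12 := by
    rw [Nat.card_congr (Subgroup.subgroupOfEquivOfLe inf_le_right).toEquiv]
    exact d.card_U1
  have hG := d.card_G1
  have hi := Subgroup.card_mul_index P
  rw [hP, hG] at hi
  have hi2 : P.index = (Q - 1) ^ 2 * ((Q ^ 3 + 1) * (Q ^ 3 + Q ^ 2 + Q + 1) * (Q ^ 6 + 1)) := by
    have h0 : 0 < Q ^ 12 := by positivity
    have : Q ^ 12 * P.index = Q ^ 12 * ((Q - 1) ^ 2 * ((Q ^ 3 + 1) * (Q ^ 3 + Q ^ 2 + Q + 1) * (Q ^ 6 + 1))) := by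
      rw [hi]
      ring
    exact Nat.eq_of_mul_eq_mul_left h0 this
  have hodd : ¬ 2 ∣ P.index := by
    rw [hi2, Nat.Prime.dvd_mul Nat.prime_two, Nat.Prime.dvd_mul Nat.prime_two, Nat.Prime.dvd_mul Nat.prime_two]
    have hq1 : ¬ 2 ∣ Q - 1 := by omega
    have hpw : ∀ k, k ≠ 0 → 2 ∣ Q ^ k := fun k hk => h2Q.trans (dvd_pow_self _ hk)
    rintro (h | ((h | h) | h))
    · exact hq1 (Nat.Prime.dvd_of_dvd_pow Nat.prime_two h)
    · have := hpw 3 (by norm_num)
      omega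
    · have h3 := hpw 3 (by norm_num)
      have h4 := hpw 2 (by norm_num)
      omega
    · have := hpw 6 (by norm_num)
      omega
  have hp : IsPGroup 2 P := IsPGroup.of_card (n := (n : ℕ) * 12) (by rw [hP, hn, pow_mul])
  let S : Sylow 2 ↥(twistedF4 K e) := hp.toSylow hodd
  have hz : IsPGroup 2 (Subgroup.zpowers g) := IsPGroup.of_card (n := 1) (by rw [Nat.card_zpowers, hg, pow_one])
  obtain ⟨R, hR⟩ := hz.exists_le_sylow
  obtain ⟨h, hh⟩ := MulAction.exists_smul_eq ↥(twistedF4 K e) R S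
  refine ⟨h, ?_⟩
  have hgQ : g ∈ (R : Subgroup _) := hR (Subgroup.mem_zpowers g)
  have h5 : h * g * h⁻¹ ∈ (S : Subgroup ↥(twistedF4 K e)) := by
    rw [← hh, Sylow.coe_subgroup_smul]
    exact Subgroup.mem_pointwise_smul_iff_inv_smul_mem.2 (by simpa [MulAut.conj_inv_apply, mul_assoc] using hgQ)
  have h6 : h * g * h⁻¹ ∈ P := h5
  exact (Subgroup.mem_subgroupOf.1 h6).1

theorem T1_mem : T1 d.f ∈ twistedF4 K e := E_mem_G1 d _ _ _ _ _ _ _ _ _ _ _ _
theorem T2_mem : T2 d.f ∈ twistedF4 K e := E_mem_G1 d _ _ _ _ _ _ _ _ _ _ _ _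

theorem T1_ne : T1 d.f ≠ 1 := by
  intro h
  rw [T1, ← E_zero d.f] at h
  have := E_inj d.f h
  simp at this

theorem T2_ne : T2 d.f ≠ 1 := by
  intro h
  rw [T2, ← E_zero d.f] at h
  have := E_inj d.f h
  simp at this

theorem T1_sq : T1 d.f * T1 d.f = 1 := by
  rw [T1, E_pP, d.pP_mul, CharTwo.add_self_eq_zero, d.pP_zero]

theorem T2_sq : T2 d.f * T2 d.f = 1 := by
  rw [T2, E_bP, d.bP_mul]
  simp [CharTwo.add_self_eq_zero, d.bP_zero]

/-- Every involution is conjugate to one of the two representatives. -/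
theorem res_of_order2 (g : ↥(twistedF4 K e)) (hg : orderOf g = 2) : Res d (g : GL chevF4.Idx K) := by
  obtain ⟨h, hh⟩ := exists_conj_into_U d g hg
  obtain ⟨t1, u1, v2, t3, u3, v4, t5, u5, v6, t7, u7, v8, hu⟩ := exists_E d hh (h * g * h⁻¹).2
  have hg2 : g * g = 1 := by
    have := pow_orderOf_eq_one g
    rwa [hg, pow_two] at this
  have hg1 : g ≠ 1 := by
    rintro rfl
    simp at hg
  have hc : Cj e (g : GL chevF4.Idx K) (E d.f t1 u1 v2 t3 u3 v4 t5 u5 v6 t7 u7 v8) :=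
    ⟨h, h.2, by rw [← hu]; rfl⟩
  have hs : E d.f t1 u1 v2 t3 u3 v4 t5 u5 v6 t7 u7 v8 * E d.f t1 u1 v2 t3 u3 v4 t5 u5 v6 t7 u7 v8 = 1 :=
    hc.sq (congrArg Subtype.val hg2)
  have hne : E d.f t1 u1 v2 t3 u3 v4 t5 u5 v6 t7 u7 v8 ≠ 1 := by
    intro h0
    apply hg1
    obtain ⟨n, hn, hn2⟩ := hc
    rw [h0] at hn2
    have h3 : (g : GL chevF4.Idx K) = 1 := by
      have : (g : GL chevF4.Idx K) = n⁻¹ * (n * g * n⁻¹) * n := by group
      rw [this, hn2]
      group
    exact Subtype.ext h3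
  exact Res.of_cj d hc (reduce d hne hs)

include d in
theorem main_count : (ConjClasses.mk '' {g : ↥(twistedF4 K e) | orderOf g = 2}).ncard = 2 := by
  classical
  let R1 : ↥(twistedF4 K e) := ⟨_, T1_mem d⟩
  let R2 : ↥(twistedF4 K e) := ⟨_, T2_mem d⟩
  have ho1 : orderOf R1 = 2 := by
    refine orderOf_eq_prime ?_ ?_
    · rw [pow_two]
      exact Subtype.ext (T1_sq d)
    · intro h
      exact T1_ne d (congrArg Subtype.val h)
  have ho2 : orderOf R2 = 2 := by
    refine orderOf_eq_prime ?_ ?_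
    · rw [pow_two]
      exact Subtype.ext (T2_sq d)
    · intro h
      exact T2_ne d (congrArg Subtype.val h)
  have key : ∀ (g T : ↥(twistedF4 K e)), Cj e (g : GL chevF4.Idx K) (T : GL chevF4.Idx K) → ConjClasses.mk g = ConjClasses.mk T := by
    rintro g T ⟨m, hm, hmT⟩
    refine ConjClasses.mk_eq_mk_iff_isConj.2 (isConj_iff.2 ⟨⟨m, hm⟩, ?_⟩)
    exact Subtype.ext hmT
  have hset : ConjClasses.mk '' {g : ↥(twistedF4 K e) | orderOf g = 2} = {ConjClasses.mk R1, ConjClasses.mk R2} := by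
    ext c
    simp only [Set.mem_image, Set.mem_ofPred_eq, Set.mem_insert_iff, Set.mem_singleton_iff]
    constructor
    · rintro ⟨g, hg, rfl⟩
      rcases res_of_order2 d g hg with h1 | h1
      · exact Or.inl (key g R1 h1)
      · exact Or.inr (key g R2 h1)
    · rintro (rfl | rfl)
      · exact ⟨R1, ho1, rfl⟩
      · exact ⟨R2, ho2, rfl⟩
  rw [hset, Set.ncard_pair]
  intro h
  obtain ⟨c, hc⟩ := isConj_iff.1 (ConjClasses.mk_eq_mk_iff_isConj.1 h)
  exact not_conj d.f (c : GL chevF4.Idx K) (congrArg Subtype.val hc)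

end Sylow

end Cfsg.Agent.Lib.F4Inv50
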