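import Cfsg.Agent.Lib.F4Inv50H
import Cfsg.Agent.Lib.Chev.TwF4T
import Cfsg.Agent.Lib.TitsBridge

/-!
# The involutions of the Tits group
-/

set_option autoImplicit false
set_option linter.unusedSectionVars false
set_option linter.unusedVariables false
set_option linter.unusedSimpArgs false
set_option maxRecDepth 100000

namespace Cfsg.Agent.Lib.F4Inv50

open Cfsg Cfsg.Lie Cfsg.Agent.Lib.Chev Cfsg.Agent.Lib.Chev.TwF4
open Cfsg.Agent.Lib.Chev.TwWF4 (gen)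

section Perf

variable {K : Type*} [Field K] [Fintype K] {e : ℕ} (d : Dat K e)

theorem pM_mem' (hP : ∀ t, pP d t ∈ dH (twistedF4 K e)) (t : K) : d.pW 14 23 t ∈ dH (twistedF4 K e) := by
  have hx : d.pW 14 23 t ∈ twistedF4 K e := by
    have := hF.wordG_mem_genSubgroup (F := K) (S := f4Words K e) (w := f4PairWord e 14 23 t) (Or.inl ⟨t, Or.inr rfl⟩)
    rwa [d.pW_word] at this
  have hn : (Dat.n₀ (K := K)).1 ∈ twistedF4 K e := d.n₀_mem
  set z := (Dat.n₀ (K := K)).1 * d.pW 14 23 t * (Dat.n₀ (K := K)).1⁻¹ with hz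
  have hzG : z ∈ twistedF4 K e := Subgroup.mul_mem _ (Subgroup.mul_mem _ hn hx) (Subgroup.inv_mem _ hn)
  obtain ⟨a, ha⟩ := d.n₀_x (r := 14) (by decide) (d.f t)
  obtain ⟨b, hb⟩ := d.n₀_x (r := 23) (by decide) t
  have hzc : z ∈ Full.rootClosure chevF4 K (fun r => r ∈ [24, 33]) := by
    have e1 : z = ((Dat.n₀ (K := K)).1 * hF.c.xG 14 (d.f t) * (Dat.n₀ (K := K)).1⁻¹) * ((Dat.n₀ (K := K)).1 * hF.c.xG 23 t * (Dat.n₀ (K := K)).1⁻¹) := by
      rw [hz, Dat.pW]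
      group
    rw [e1, ha, hb]
    have n1 : chevF4.neg 14 = 33 := by decide +kernel
    have n2 : chevF4.neg 23 = 24 := by decide +kernel
    rw [n1, n2]
    exact Subgroup.mul_mem _ (hF.xG_mem_rootClosure (by simp) _) (hF.xG_mem_rootClosure (by simp) _)
  obtain ⟨t', ht'⟩ := d.pair_of_fixed (fun r => Iff.rfl) hzc ((d.G1_le_Fx hzG).2)
  have e2 : d.pW 14 23 t = (Dat.n₀ (K := K)).1⁻¹ * z * ((Dat.n₀ (K := K)).1⁻¹)⁻¹ := by
    rw [hz]
    group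
  rw [e2, ht']
  exact conj_mem_dH (Subgroup.inv_mem _ hn) (hP t')

theorem bM_mem' (hB : ∀ t u, bP d t u ∈ dH (twistedF4 K e)) (t u : K) : bW d.f d.g 20 22 19 17 t u ∈ dH (twistedF4 K e) := by
  have hx : bW d.f d.g 20 22 19 17 t u ∈ twistedF4 K e := by
    have := hF.wordG_mem_genSubgroup (F := K) (S := f4Words K e) (w := b2ClassWord e 20 22 19 17 t u) (Or.inr ⟨t, u, Or.inr rfl⟩)
    rwa [d.bW_word] at this
  have hn : (Dat.n₀ (K := K)).1 ∈ twistedF4 K e := d.n₀_mem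
  set z := (Dat.n₀ (K := K)).1 * bW d.f d.g 20 22 19 17 t u * (Dat.n₀ (K := K)).1⁻¹ with hz
  have hzG : z ∈ twistedF4 K e := Subgroup.mul_mem _ (Subgroup.mul_mem _ hn hx) (Subgroup.inv_mem _ hn)
  obtain ⟨a, ha⟩ := d.n₀_x (r := 20) (by decide) (d.f t)
  obtain ⟨b, hb⟩ := d.n₀_x (r := 22) (by decide) t
  obtain ⟨c, hc⟩ := d.n₀_x (r := 19) (by decide) (d.f t * t + u)
  obtain ⟨a', ha'⟩ := d.n₀_x (r := 17) (by decide) (d.g u)
  have hzc : z ∈ Full.rootClosure chevF4 K (fun r => r ∈ [25, 27, 28, 30]) := by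
    have e1 : z = ((Dat.n₀ (K := K)).1 * hF.c.xG 20 (d.f t) * (Dat.n₀ (K := K)).1⁻¹) * (((Dat.n₀ (K := K)).1 * hF.c.xG 22 t * (Dat.n₀ (K := K)).1⁻¹) *
        (((Dat.n₀ (K := K)).1 * hF.c.xG 19 (d.f t * t + u) * (Dat.n₀ (K := K)).1⁻¹) * ((Dat.n₀ (K := K)).1 * hF.c.xG 17 (d.g u) * (Dat.n₀ (K := K)).1⁻¹))) := by
      rw [hz, bW]
      group
    rw [e1, ha, hb, hc, ha']
    have n1 : chevF4.neg 20 = 27 := by decide +kernel
    have n2 : chevF4.neg 22 = 25 := by decide +kernel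
    have n3 : chevF4.neg 19 = 28 := by decide +kernel
    have n4 : chevF4.neg 17 = 30 := by decide +kernel
    rw [n1, n2, n3, n4]
    exact Subgroup.mul_mem _ (hF.xG_mem_rootClosure (by simp) _) (Subgroup.mul_mem _ (hF.xG_mem_rootClosure (by simp) _)
      (Subgroup.mul_mem _ (hF.xG_mem_rootClosure (by simp) _) (hF.xG_mem_rootClosure (by simp) _)))
  obtain ⟨B, A, C, E, hNF⟩ := exists_NF d.h2 (Q := fun r => r ∈ [25, 27, 28, 30]) (fun r hr => by simpa using hr) hzc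
  have ht' := d.word_of_fixed B A C E hNF ((d.G1_le_Fx hzG).2)
  have e2 : bW d.f d.g 20 22 19 17 t u = (Dat.n₀ (K := K)).1⁻¹ * z * ((Dat.n₀ (K := K)).1⁻¹)⁻¹ := by
    rw [hz]
    group
  rw [e2, ht']
  exact conj_mem_dH (Subgroup.inv_mem _ hn) (hB B C)

theorem perfect_of_pos (hP : ∀ t, pP d t ∈ dH (twistedF4 K e)) (hB : ∀ t u, bP d t u ∈ dH (twistedF4 K e)) :
    commutator ↥(twistedF4 K e) = ⊤ := by
  apply perfect_of_le
  apply hF.c.gen_le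
  rintro w (⟨t, rfl | rfl⟩ | ⟨t, u, rfl | rfl⟩)
  · rw [d.pW_word]
    exact hP t
  · rw [d.pW_word]
    exact pM_mem' d hP t
  · rw [d.bW_word]
    exact hB t u
  · rw [d.bW_word]
    exact bM_mem' d hB t u

end Perf

section Tits

variable (d : Dat (ZMod 2) 1)

/-- The group. -/
abbrev GG : Subgroup (GL chevF4.Idx (ZMod 2)) := twistedF4 (ZMod 2) 1

/-- The derived subgroup. -/
abbrev TT : Subgroup ↥GG := commutator ↥GG

theorem E_bP' (t u : ZMod 2) : E d.f t u 0 0 0 0 0 0 0 0 0 0 = bP d t u := by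
  have e1 : bP d t u = bW d.f d.g 27 25 28 30 t u := rfl
  rw [e1, d.bP_NF, d.g_apply]
  unfold NF E W
  simp [x_zero, mul_comm]
  exact congrArg _ (add_comm _ _)

/-- An element outside the derived subgroup. -/
noncomputable def cc : ↥GG := ⟨bP d 1 0, d.bP_mem_G1 1 0⟩

theorem mem_TT {x : ↥GG} (hx : x * x = 1) : x ∈ TT := Cfsg.Agent.Lib.TwoF4Bridge.main x hx

theorem cc_notin : cc d ∉ TT := by
  intro h
  have hP : ∀ t, pP d t ∈ dH GG := by
    intro t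
    refine ⟨⟨pP d t, d.pP_mem_G1 t⟩, mem_TT (Subtype.ext ?_), rfl⟩
    show pP d t * pP d t = 1
    rw [d.pP_mul, CharTwo.add_self_eq_zero, d.pP_zero]
  have h0 : ∀ u, bP d 0 u ∈ dH GG := by
    intro u
    refine ⟨⟨bP d 0 u, d.bP_mem_G1 0 u⟩, mem_TT (Subtype.ext ?_), rfl⟩
    show bP d 0 u * bP d 0 u = 1
    rw [d.bP_mul]
    simp [CharTwo.add_self_eq_zero, d.bP_zero]
  have hB : ∀ t u, bP d t u ∈ dH GG := by
    intro t u
    rcases Cfsg.Agent.Lib.TwoF4Bridge.tcases t with rfl | rfl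
    · exact h0 u
    · rw [← d.bP_split 1 u]
      exact Subgroup.mul_mem _ ⟨cc d, h, rfl⟩ (h0 u)
  have hp := perfect_of_pos d hP hB
  have hi := Cfsg.Agent.Lib.TitsBridge.index_tits
  rw [Cfsg.Agent.Lib.TwoF4Bridge.G] at hi
  rw [hp] at hi
  simp at hi

/-- A conjugate of the first representative commuting with `cc`. -/
noncomputable def R1 : GL chevF4.Idx (ZMod 2) := E d.f 0 0 1 0 0 0 0 0 0 0 0 0

theorem R1_mem : R1 d ∈ GG := E_mem_G1 d _ _ _ _ _ _ _ _ _ _ _ _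

theorem R1_conj : Cj 1 (R1 d) (T1 d.f) := by
  have c := cjC d (ncA d.f d.hθ 1 0 0 0 0 0 0 0 0)
  simpa [R1, T1] using c

theorem R1_sq : R1 d * R1 d = 1 := (R1_conj d).symm.sq (T1_sq d)

theorem R1_ne : R1 d ≠ 1 := by
  intro h
  rw [R1, ← E_zero d.f] at h
  have := E_inj d.f h
  simp at this

theorem cc_R1 : bP d 1 0 * R1 d = R1 d * bP d 1 0 := by
  rw [← E_bP', R1]
  unfold E
  rw [W_mul, W_mul]
  apply W_congr <;> simp

theorem cc_T2 : bP d 1 0 * T2 d.f = T2 d.f * bP d 1 0 := by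
  have h : T2 d.f = bP d 1 0 * bP d 1 0 := by
    rw [T2, E_bP, d.bP_mul]
    simp [CharTwo.add_self_eq_zero]
  rw [h, mul_assoc]

theorem conj_in_T (g R : ↥TT) (hc : bP d 1 0 * (R : ↥GG).1 = (R : ↥GG).1 * bP d 1 0)
    (h : GL chevF4.Idx (ZMod 2)) (hm : h ∈ GG) (hh : h * (g : ↥GG).1 * h⁻¹ = (R : ↥GG).1) :
    ConjClasses.mk g = ConjClasses.mk R := by
  have hidx : TT.index = 2 := Cfsg.Agent.Lib.TitsBridge.index_tits
  refine ConjClasses.mk_eq_mk_iff_isConj.2 (isConj_iff.2 ?_)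
  by_cases hT : (⟨h, hm⟩ : ↥GG) ∈ TT
  · exact ⟨⟨⟨h, hm⟩, hT⟩, Subtype.ext (Subtype.ext hh)⟩
  · have h1 : cc d * (⟨h, hm⟩ : ↥GG) ∈ TT :=
      (Subgroup.mul_mem_iff_of_index_two hidx).2 (iff_of_false (cc_notin d) hT)
    refine ⟨⟨cc d * (⟨h, hm⟩ : ↥GG), h1⟩, Subtype.ext (Subtype.ext ?_)⟩
    show (bP d 1 0 * h) * (g : ↥GG).1 * (bP d 1 0 * h)⁻¹ = (R : ↥GG).1
    calc (bP d 1 0 * h) * (g : ↥GG).1 * (bP d 1 0 * h)⁻¹
        = bP d 1 0 * (h * (g : ↥GG).1 * h⁻¹) * (bP d 1 0)⁻¹ := by group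
      _ = (bP d 1 0 * (R : ↥GG).1) * (bP d 1 0)⁻¹ := by rw [hh]
      _ = (R : ↥GG).1 := by rw [hc]; group


noncomputable def rr1 : ↥TT := ⟨⟨R1 d, R1_mem d⟩, mem_TT (Subtype.ext (R1_sq d))⟩
noncomputable def rr2 : ↥TT := ⟨⟨T2 d.f, T2_mem d⟩, mem_TT (Subtype.ext (T2_sq d))⟩

theorem rr_order {x : ↥TT} (h1 : (x : ↥GG).1 * (x : ↥GG).1 = 1) (h2 : (x : ↥GG).1 ≠ 1) : orderOf x = 2 := by
  refine orderOf_eq_prime ?_ ?_
  · rw [pow_two]
    apply Subtype.ext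
    apply Subtype.ext
    rw [Subgroup.coe_mul, Subgroup.coe_mul, Subgroup.coe_one, Subgroup.coe_one]
    exact h1
  · rintro rfl
    exact h2 rfl

theorem rr1_order : orderOf (rr1 d) = 2 := rr_order (R1_sq d) (R1_ne d)
theorem rr2_order : orderOf (rr2 d) = 2 := rr_order (T2_sq d) (T2_ne d)

theorem rr_classes (g : ↥TT) (hg : orderOf g = 2) : ConjClasses.mk g = ConjClasses.mk (rr1 d) ∨ ConjClasses.mk g = ConjClasses.mk (rr2 d) := by
  have hg' : orderOf (g : ↥GG) = 2 := by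
    rw [Subgroup.orderOf_coe]
    exact hg
  rcases res_of_order2 d (g : ↥GG) hg' with h1 | h1
  · obtain ⟨h, hm, hh⟩ := h1.trans (R1_conj d).symm
    exact Or.inl (conj_in_T d g (rr1 d) (cc_R1 d) h hm hh)
  · obtain ⟨h, hm, hh⟩ := h1
    exact Or.inr (conj_in_T d g (rr2 d) (cc_T2 d) h hm hh)

theorem rr_ne : ConjClasses.mk (rr1 d) ≠ ConjClasses.mk (rr2 d) := by
  intro h
  obtain ⟨c, hc⟩ := isConj_iff.1 (ConjClasses.mk_eq_mk_iff_isConj.1 h)
  have h2 : ((c : ↥GG) : GL chevF4.Idx (ZMod 2)) * R1 d * ((c : ↥GG) : GL chevF4.Idx (ZMod 2))⁻¹ = T2 d.f := by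
    have h3 := congrArg (fun z : ↥TT => ((z : ↥GG) : GL chevF4.Idx (ZMod 2))) hc
    exact h3
  obtain ⟨n, -, hn⟩ := R1_conj d
  apply not_conj d.f (((c : ↥GG) : GL chevF4.Idx (ZMod 2)) * n⁻¹)
  rw [← h2, ← hn]
  group

theorem tits_count_aux : (ConjClasses.mk '' {g : ↥TT | orderOf g = 2}).ncard = 2 ∧ rr1 d = rr1 d := by
  classical
  refine ⟨?_, rfl⟩
  have hset : ConjClasses.mk '' {g : ↥TT | orderOf g = 2} = {ConjClasses.mk (rr1 d), ConjClasses.mk (rr2 d)} := by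
    ext c
    simp only [Set.mem_image, Set.mem_ofPred_eq, Set.mem_insert_iff, Set.mem_singleton_iff]
    constructor
    · rintro ⟨g, hg, rfl⟩
      exact rr_classes d g hg
    · rintro (rfl | rfl)
      · exact ⟨_, rr1_order d, rfl⟩
      · exact ⟨_, rr2_order d, rfl⟩
  rw [hset, Set.ncard_pair]
  exact rr_ne d

end Tits

/-- The two classes of involutions of the Tits group. -/
theorem tits_count : (ConjClasses.mk '' {g : TitsGroup | orderOf g = 2}).ncard = 2 := by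
  obtain ⟨d⟩ := Cfsg.Agent.Lib.Chev.TwF4T.exists_dat2
  exact (tits_count_aux d).1

end Cfsg.Agent.Lib.F4Inv50
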