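import Cfsg.Agent.Lib.Chev.TwBN
import Cfsg.Agent.Lib.Chev.Cells
import Cfsg.Agent.Lib.Chev.Poincare
import Cfsg.Agent.Lib.Chev.Levi
import Cfsg.Agent.Lib.Chev.RelF4

/-!
# The order of a standard parabolic subgroup, and elements of the derived Levi subgroup
-/

set_option autoImplicit false
set_option linter.unusedSectionVars false
set_option linter.unusedVariables false
set_option linter.unusedSimpArgs false

namespace Cfsg.Agent.Lib.F4LeviD

open Cfsg Cfsg.Lie Matrix Equiv Cfsg.Agent.Lib.Chev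
open Full (invF cellS)

variable {T : Tabs} {X : Extra} {R : RootTab} {D : ChevalleyDatum} (hF : Full T X R D) {F : Type*} [Field F]

include hF

theorem mono_mem_parabolic {J : Set ℕ} : ∀ σ ∈ hF.Wk J, ∀ m' : ↥(D.monomialSubgroup F), hF.rhoN F m' = σ →
    m'.1 ∈ D.parabolicSubgroup F J := by
  refine hF.Wk_induction_left (J := J) (p := fun σ => ∀ m' : ↥(D.monomialSubgroup F), hF.rhoN F m' = σ →
    m'.1 ∈ D.parabolicSubgroup F J) ?_ ?_
  · intro m' hm'
    exact hF.borel_le_parabolic J (hF.c.diagonal_le_borel (hF.mem_diagonal_of_rhoN_eq_one hm'))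
  · intro σ j hj hjJ ih m' hm'
    let m'' : ↥(D.monomialSubgroup F) := (hF.nN hj)⁻¹ * m'
    have hm'' : hF.rhoN F m'' = σ := by
      show hF.rhoN F ((hF.nN hj)⁻¹ * m') = σ
      rw [map_mul, map_inv, hF.rhoN_nN, hm']
      simp
    have e1 : m'.1 = hF.nS j * m''.1 := by
      show m'.1 = hF.nS j * ((hF.nS j)⁻¹ * m'.1)
      group
    rw [e1]
    exact Subgroup.mul_mem _ (hF.nS_mem_parabolic hj hjJ) (ih m'' hm'')

/-- The union of the cells over `W_J`, as a subgroup. -/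
def cellSub (J : Set ℕ) : Subgroup (GL D.Idx F) where
  carrier := {g | ∃ n : ↥(D.monomialSubgroup F), hF.rhoN F n ∈ hF.Wk J ∧ g ∈ cellS D F n.1}
  one_mem' := by
    refine ⟨1, by rw [map_one]; exact Subgroup.one_mem _, 1, Subgroup.one_mem _, 1, Subgroup.one_mem _, ?_⟩
    simp
  mul_mem' := by
    rintro g₁ g₂ ⟨n₁, h₁, b₁, hb₁, b₂, hb₂, rfl⟩ ⟨n₂, h₂, b₃, hb₃, b₄, hb₄, rfl⟩
    obtain ⟨u, hu, c₁, hc₁, c₂, hc₂, e⟩ := hF.Wk_cell (F := F) _ h₁ n₁ rfl (b₂ * b₃)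
      (Subgroup.mul_mem _ hb₂ hb₃) n₂.1 n₂.2
    refine ⟨u * n₂, ?_, b₁ * c₁, Subgroup.mul_mem _ hb₁ hc₁, c₂ * b₄, Subgroup.mul_mem _ hc₂ hb₄, ?_⟩
    · rw [map_mul]
      exact Subgroup.mul_mem _ hu h₂
    · have e1 : b₁ * n₁.1 * b₂ * (b₃ * n₂.1 * b₄) = b₁ * (n₁.1 * (b₂ * b₃) * n₂.1) * b₄ := by group
      rw [e1, e]
      show _ = b₁ * c₁ * (u.1 * n₂.1) * (c₂ * b₄)
      group
  inv_mem' := by
    rintro g ⟨n, h, b₁, hb₁, b₂, hb₂, rfl⟩
    refine ⟨n⁻¹, ?_, b₂⁻¹, Subgroup.inv_mem _ hb₂, b₁⁻¹, Subgroup.inv_mem _ hb₁, ?_⟩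
    · rw [map_inv]
      exact Subgroup.inv_mem _ h
    · show _ = b₂⁻¹ * (n.1)⁻¹ * b₁⁻¹
      group

theorem parabolic_le_cellSub (J : Set ℕ) : D.parabolicSubgroup F J ≤ cellSub hF J := by
  apply sup_le
  · intro b hb
    refine ⟨1, by rw [map_one]; exact Subgroup.one_mem _, b, hb, 1, Subgroup.one_mem _, ?_⟩
    simp
  · rw [Subgroup.closure_le]
    rintro g ⟨j, hjJ, hj, hg⟩
    have hg' : g = hF.nS j := Units.ext (hg.trans (hF.coe_nS j).symm)
    rw [hg']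
    refine ⟨hF.nN hj, ?_, Full.self_mem_cell _⟩
    rw [hF.rhoN_nN]
    exact Subgroup.subset_closure ⟨j, hj, hjJ, rfl⟩

open scoped Classical in
/-- `|P_J| = |B| ∑_{w ∈ W_J} q^{ℓ(w)}`. -/
theorem card_parabolic [Fintype F] (J : Set ℕ) :
    Nat.card (D.parabolicSubgroup F J) = Nat.card (D.borelSubgroup F) * hF.poin J (Fintype.card F) := by
  have hWk : hF.Wk J ≤ hF.Wk Set.univ := Subgroup.closure_mono (by
    rintro _ ⟨j, hj, _, rfl⟩
    exact ⟨j, hj, trivial, rfl⟩)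
  have hchoose : ∀ σ : {σ : Perm (Fin D.nroots) // σ ∈ hF.Wk J},
      ∃ n : ↥(D.monomialSubgroup F), hF.rhoN F n = σ.1 := fun σ => hF.exists_rhoN_eq (hWk σ.2)
  choose nσ hnσ using hchoose
  have hcellP : ∀ (σ : {σ : Perm (Fin D.nroots) // σ ∈ hF.Wk J}) (g : GL D.Idx F), g ∈ cellS D F (nσ σ).1 →
      g ∈ D.parabolicSubgroup F J := by
    rintro σ g ⟨b₁, hb₁, b₂, hb₂, rfl⟩
    exact Subgroup.mul_mem _ (Subgroup.mul_mem _ (hF.borel_le_parabolic J hb₁)
      (mono_mem_parabolic hF σ.1 σ.2 (nσ σ) (hnσ σ))) (hF.borel_le_parabolic J hb₂)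
  let f : (Σ σ : {σ : Perm (Fin D.nroots) // σ ∈ hF.Wk J}, ↥(cellS D F (nσ σ).1)) → ↥(D.parabolicSubgroup F J) :=
    fun x => ⟨x.2.1, hcellP _ _ x.2.2⟩
  have hf : Function.Bijective f := by
    constructor
    · rintro ⟨σ, ⟨g, hg⟩⟩ ⟨τ, ⟨g', hg'⟩⟩ e
      have e' : g = g' := congrArg Subtype.val e
      subst e'
      have h1 := hF.cell_disjoint (nσ σ).2 (nσ τ).2 hg hg'
      have h2 : (nσ σ).1⁻¹ * (nσ τ).1 ∈ D.diagonalSubgroup F := by
        rw [← hF.B_inf_N]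
        exact ⟨h1, Subgroup.mul_mem _ (Subgroup.inv_mem _ (nσ σ).2) (nσ τ).2⟩
      have h3 := hF.rhoN_of_mem_diagonal ((nσ σ)⁻¹ * nσ τ) h2
      rw [map_mul, map_inv, hnσ, hnσ, inv_mul_eq_one] at h3
      have h4 : σ = τ := Subtype.ext h3
      subst h4
      rfl
    · rintro ⟨g, hg⟩
      obtain ⟨n', hn', b₁, hb₁, b₂, hb₂, e1⟩ := parabolic_le_cellSub hF J hg
      let σ : {σ : Perm (Fin D.nroots) // σ ∈ hF.Wk J} := ⟨hF.rhoN F n', hn'⟩
      have h3 : hF.rhoN F ((nσ σ)⁻¹ * n') = 1 := by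
        rw [map_mul, map_inv, hnσ]
        simp [σ]
      have h4 := hF.mem_diagonal_of_rhoN_eq_one h3
      have h5 : (nσ σ).1⁻¹ * n'.1 ∈ D.diagonalSubgroup F := h4
      have hmem : g ∈ cellS D F (nσ σ).1 := by
        refine ⟨b₁, hb₁, ((nσ σ).1⁻¹ * n'.1) * b₂,
          Subgroup.mul_mem _ (hF.c.diagonal_le_borel h5) hb₂, ?_⟩
        rw [e1]
        group
      exact ⟨⟨σ, ⟨g, hmem⟩⟩, rfl⟩
  rw [← Nat.card_congr (Equiv.ofBijective f hf), Nat.card_sigma, Full.poin, Finset.mul_sum]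
  rw [Finset.sum_subtype (p := fun σ => σ ∈ hF.Wk J)
    (Finset.univ.filter fun σ : Perm (Fin D.nroots) => σ ∈ hF.Wk J) (fun σ => by simp)]
  apply Finset.sum_congr rfl
  intro σ _
  rw [hF.card_cell _ (nσ σ) rfl, hnσ]

/-- `|P_J| = |U_J| |L_J|`. -/
theorem card_parabolic_eq_mul (J : Set ℕ) [Finite F] :
    Nat.card (D.parabolicSubgroup F J) = Nat.card (D.unipotentRadical F J) * Nat.card (D.leviSubgroup F J) := by
  classical
  have hle : D.unipotentRadical F J ≤ D.parabolicSubgroup F J := by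
    rw [← hF.radical_sup_levi J]; exact le_sup_left
  have hle2 : D.leviSubgroup F J ≤ D.parabolicSubgroup F J := by
    rw [← hF.radical_sup_levi J]; exact le_sup_right
  have hnorm : D.leviSubgroup F J ≤ Subgroup.normalizer (D.unipotentRadical F J : Set (GL D.Idx F)) :=
    hle2.trans (hF.parabolic_le_normalizer J)
  rw [← Nat.card_prod]
  symm
  let f : ↥(D.unipotentRadical F J) × ↥(D.leviSubgroup F J) → ↥(D.parabolicSubgroup F J) := fun x =>
    ⟨x.1.1 * x.2.1, Subgroup.mul_mem _ (hle x.1.2) (hle2 x.2.2)⟩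
  refine Nat.card_congr (Equiv.ofBijective f ⟨?_, ?_⟩)
  · rintro ⟨⟨u, hu⟩, ⟨h, hh⟩⟩ ⟨⟨u', hu'⟩, ⟨h', hh'⟩⟩ e
    have e' : u * h = u' * h' := congrArg Subtype.val e
    have h1 : u'⁻¹ * u = h' * h⁻¹ := by
      rw [inv_mul_eq_iff_eq_mul, ← mul_assoc, eq_mul_inv_iff_mul_eq, e']
    have h2 : u'⁻¹ * u ∈ D.unipotentRadical F J ⊓ D.leviSubgroup F J :=
      ⟨Subgroup.mul_mem _ (Subgroup.inv_mem _ hu') hu, by
        rw [h1]; exact Subgroup.mul_mem _ hh' (Subgroup.inv_mem _ hh)⟩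
    rw [hF.radical_inf_levi J, Subgroup.mem_bot] at h2
    have h3 : u = u' := by
      rw [inv_mul_eq_one] at h2
      exact h2.symm
    subst h3
    have h4 : h = h' := mul_left_cancel e'
    subst h4
    rfl
  · rintro ⟨g, hg⟩
    rw [← hF.radical_sup_levi J, sup_comm] at hg
    have h5 := Subgroup.coe_mul_of_left_le_normalizer_right _ _ hnorm
    have h6 : g ∈ ((D.leviSubgroup F J ⊔ D.unipotentRadical F J : Subgroup _) : Set (GL D.Idx F)) := hg
    rw [h5] at h6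
    obtain ⟨l, hl, u, hu, rfl⟩ := Set.mem_mul.1 h6
    refine ⟨(⟨l * u * l⁻¹, ?_⟩, ⟨l, hl⟩), Subtype.ext (by show l * u * l⁻¹ * l = l * u; group)⟩
    exact (Subgroup.mem_normalizer_iff.1 (hnorm hl) u).1 hu

omit hF in
/-- Elements of `H M`, with `H` normalising `M`. -/
theorem pow_mem_aux {G : Type*} [Group G] {A M : Subgroup G} (hA : A ≤ Subgroup.normalizer (M : Set G))
    {a m : G} (ha : a ∈ A) (hm : m ∈ M) (k : ℕ) : ∃ m' ∈ M, (a * m) ^ k = a ^ k * m' := by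
  induction k with
  | zero => exact ⟨1, Subgroup.one_mem _, by simp⟩
  | succ k ih =>
    obtain ⟨m', hm', e⟩ := ih
    refine ⟨a⁻¹ * m' * a * m, Subgroup.mul_mem _ ?_ hm, ?_⟩
    · have := (Subgroup.mem_normalizer_iff.1 (Subgroup.inv_mem _ (hA ha)) m').1 hm'
      simpa using this
    · rw [pow_succ, e, pow_succ]
      group

/-- The statement wanted: a prime dividing the Poincare polynomial of `W_J` at `q`, not dividing `q (q - 1)`, is
the order of an element of `⟨X_r : r ∈ Φ_J⟩`. -/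
theorem exists_levi_elt_gen [Fintype F] (J : Set ℕ) (s : ℕ) [Fact s.Prime] (hsp : ¬ s ∣ Fintype.card F)
    (hsq : ¬ s ∣ Fintype.card F - 1) (hs : s ∣ hF.poin J (Fintype.card F)) :
    ∃ y : GL D.Idx F, orderOf y = s ∧ y ∈ Subgroup.closure {g : GL D.Idx F | ∃ (r : ℕ) (t : F), D.InRootSub J r ∧
      (g : Matrix D.Idx D.Idx F) = D.x F r t} := by
  classical
  have hsP : s.Prime := Fact.out
  -- `s` divides `|L_J|`
  have h1 : s ∣ Nat.card (D.parabolicSubgroup F J) := by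
    rw [card_parabolic hF J]
    exact Dvd.dvd.mul_left hs _
  rw [card_parabolic_eq_mul hF J] at h1
  have h2 : ¬ s ∣ Nat.card (D.unipotentRadical F J) := by
    intro h3
    have h4 : Nat.card (D.unipotentRadical F J) ∣ Nat.card (D.posUnipotent F) :=
      Subgroup.card_dvd_of_le (hF.radical_le_U J)
    rw [hF.card_U_fintype] at h4
    exact hsp (hsP.dvd_of_dvd_pow (h3.trans h4))
  have h3 : s ∣ Nat.card (D.leviSubgroup F J) := (hsP.dvd_mul.1 h1).resolve_left h2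
  haveI : Finite (GL D.Idx F) := inferInstance
  obtain ⟨y, hy⟩ := exists_prime_orderOf_dvd_card' s h3
  set M := Subgroup.closure {g : GL D.Idx F | ∃ (r : ℕ) (t : F), D.InRootSub J r ∧
      (g : Matrix D.Idx D.Idx F) = D.x F r t} with hM
  have hnorm : D.diagonalSubgroup F ≤ Subgroup.normalizer (M : Set (GL D.Idx F)) :=
    hF.diagonal_le_normalizer_closure (D.InRootSub J) (fun r hr => hr.1)
  have h5 : (y : GL D.Idx F) ∈ ((D.diagonalSubgroup F ⊔ M : Subgroup _) : Set (GL D.Idx F)) := y.2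
  rw [Subgroup.coe_mul_of_left_le_normalizer_right _ _ hnorm] at h5
  obtain ⟨a, ha, m, hm, e⟩ := Set.mem_mul.1 h5
  obtain ⟨m', hm', e2⟩ := pow_mem_aux hnorm ha hm (Fintype.card F - 1)
  have ha1 : a ^ (Fintype.card F - 1) = 1 := by
    obtain ⟨c, rfl⟩ := (hF.mem_diagonal_iff).1 ha
    have h6 : c ^ (Fintype.card F - 1) = 1 := by
      funext i
      simp only [Pi.pow_apply, Pi.one_apply]
      rw [← Fintype.card_units]
      exact pow_card_eq_one
    have h7 := map_pow (torHom (F := F) R D) c (Fintype.card F - 1)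
    rw [h6, map_one] at h7
    exact h7.symm
  rw [ha1, one_mul, e] at e2
  refine ⟨(y : GL D.Idx F) ^ (Fintype.card F - 1), ?_, by rw [e2]; exact hm'⟩
  have hy' : orderOf (y : GL D.Idx F) = s := by
    rw [Subgroup.orderOf_coe, hy]
  have hc : (orderOf (y : GL D.Idx F)).Coprime (Fintype.card F - 1) := by
    rw [hy']
    exact (Nat.Prime.coprime_iff_not_dvd hsP).2 hsq
  rw [hc.orderOf_pow, hy']

omit hF in
/-- The form wanted for type `F₄`. -/
theorem exists_levi_elt {T : Tabs} {X : Extra} {R : RootTab} (hF : Full T X R chevF4) [Fintype F] (s : ℕ)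
    [Fact s.Prime] (hsp : ¬ s ∣ Fintype.card F) (hsq : ¬ s ∣ Fintype.card F - 1)
    (hs : s ∣ hF.poin {x | x ∈ [2, 1, 0]} (Fintype.card F)) :
    ∃ y : GL chevF4.Idx F, orderOf y = s ∧ y ∈ Subgroup.closure {g : GL chevF4.Idx F | ∃ (r : ℕ) (t : F),
      chevF4.InRootSub {0, 1, 2} r ∧ (g : Matrix chevF4.Idx chevF4.Idx F) = chevF4.x F r t} := by
  have hJ : ({x | x ∈ [2, 1, 0]} : Set ℕ) = {0, 1, 2} := by
    ext x
    simp only [Set.mem_setOf_eq, List.mem_cons, List.not_mem_nil, or_false, Set.mem_insert_iff,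
      Set.mem_singleton_iff]
    omega
  rw [hJ] at hs
  exact exists_levi_elt_gen hF _ s hsp hsq hs

end Cfsg.Agent.Lib.F4LeviD
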