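import Mathlib
import Cfsg.Agent.Lib.FFMod
import Cfsg.Agent.Lib.QuadPair
import Cfsg.Agent.Lib.QuadSL2
import Cfsg.Agent.Lib.QdPair

/-!
# Transvections normalizing a `p'`-subgroup.
-/

set_option autoImplicit false
set_option linter.unusedSectionVars false
set_option linter.style.haveILetI false

open scoped commutatorElement
open Cfsg

namespace Cfsg.Agent.Lib.FFTv

open Cfsg.Agent.Lib.FFMod

section Basic

variable {p : ℕ} [hp : Fact p.Prime] {Γ : Type*} [Group Γ] {E : Type*} [AddCommGroup E]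
  [Module (ZMod p) E] {ρ : Γ →* Module.End (ZMod p) E}

/-- Transvection data. -/
structure Tv (ρ : Γ →* Module.End (ZMod p) E) (t : Γ) (u : E) (f : Module.Dual (ZMod p) E) : Prop where
  app : ∀ v, ρ t v = v + f v • u
  fu : f u = 0
  u0 : u ≠ 0
  f0 : f ≠ 0

theorem Tv.inv_app {t : Γ} {u : E} {f : Module.Dual (ZMod p) E} (h : Tv ρ t u f) (v : E) :
    ρ t⁻¹ v = v - f v • u := by
  have h1 : ρ t (v - f v • u) = v := by
    rw [h.app, map_sub, map_smul, h.fu]
    simp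
  calc ρ t⁻¹ v = ρ t⁻¹ (ρ t (v - f v • u)) := by rw [h1]
    _ = v - f v • u := by
      rw [← Module.End.mul_apply, ← map_mul, inv_mul_cancel, map_one]; rfl

theorem Tv.pow_app {t : Γ} {u : E} {f : Module.Dual (ZMod p) E} (h : Tv ρ t u f) (n : ℕ) (v : E) :
    ρ (t ^ n) v = v + ((n : ZMod p) * f v) • u := by
  induction n with
  | zero => simp
  | succ n ih =>
    rw [pow_succ', map_mul, Module.End.mul_apply, ih, h.app, map_add, map_smul, h.fu, smul_zero, add_zero,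
      add_assoc, ← add_smul]
    congr 2
    push_cast
    ring

theorem Tv.inv_pow_app {t : Γ} {u : E} {f : Module.Dual (ZMod p) E} (h : Tv ρ t u f) (n : ℕ) (v : E) :
    ρ (t⁻¹ ^ n) v = v - ((n : ZMod p) * f v) • u := by
  induction n with
  | zero => simp
  | succ n ih =>
    rw [pow_succ', map_mul, Module.End.mul_apply, ih, h.inv_app, map_sub, map_smul, h.fu, smul_zero, sub_zero,
      sub_sub, ← add_smul]
    congr 2
    push_cast
    ring

theorem Tv.pow_p {t : Γ} {u : E} {f : Module.Dual (ZMod p) E} (h : Tv ρ t u f) : ρ (t ^ p) = 1 := by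
  apply LinearMap.ext
  intro v
  rw [h.pow_app]
  simp

theorem rho_inv_rho (g : Γ) (v : E) : ρ g⁻¹ (ρ g v) = v := by
  rw [← Module.End.mul_apply, ← map_mul, inv_mul_cancel, map_one]; rfl

theorem rho_rho_inv (g : Γ) (v : E) : ρ g (ρ g⁻¹ v) = v := by
  rw [← Module.End.mul_apply, ← map_mul, mul_inv_cancel, map_one]; rfl

/-- Conjugates of transvections. -/
theorem Tv.conj {t : Γ} {u : E} {f : Module.Dual (ZMod p) E} (h : Tv ρ t u f) (g : Γ) :
    Tv ρ (g * t * g⁻¹) (ρ g u) (f ∘ₗ (ρ g⁻¹ : E →ₗ[ZMod p] E)) := by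
  refine ⟨?_, ?_, ?_, ?_⟩
  · intro v
    rw [map_mul, map_mul, Module.End.mul_apply, Module.End.mul_apply, h.app, map_add, map_smul, rho_rho_inv]
    rfl
  · show f (ρ g⁻¹ (ρ g u)) = 0
    rw [rho_inv_rho, h.fu]
  · intro h0
    apply h.u0
    have := rho_inv_rho (ρ := ρ) g u
    rw [h0, map_zero] at this
    exact this.symm
  · intro h0
    apply h.f0
    ext v
    have := congrArg (fun φ : Module.Dual (ZMod p) E => φ (ρ g v)) h0
    simp only [LinearMap.comp_apply] at this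
    rw [rho_inv_rho] at this
    exact this

theorem Tv.ne_one {t : Γ} {u : E} {f : Module.Dual (ZMod p) E} (h : Tv ρ t u f) : t ≠ 1 := by
  rintro rfl
  apply h.f0
  ext v
  have h1 := h.app v
  rw [map_one] at h1
  have h2 : v = v + f v • u := h1
  have h3 : f v • u = 0 := by
    have : v + f v • u = v + 0 := by rw [add_zero]; exact h2.symm
    exact add_left_cancel this
  exact (smul_eq_zero.mp h3).resolve_right h.u0

variable [Finite E]

/-- A unipotent operator. -/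
theorem unipotent_pow {ψ : Module.End (ZMod p) E} (hψ : (ψ - 1) ^ 3 = 0) : ψ ^ p ^ 2 = 1 := by
  classical
  by_cases hE : Nontrivial E
  · haveI : Nontrivial (Module.End (ZMod p) E) := inferInstance
    haveI : CharP (Module.End (ZMod p) E) p :=
      charP_of_injective_algebraMap (algebraMap (ZMod p) (Module.End (ZMod p) E)).injective p
    have h1 : (ψ - 1) ^ p ^ 2 = ψ ^ p ^ 2 - 1 := by
      have := sub_pow_char_pow_of_commute (p := p) (n := 2) (Commute.one_right ψ)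
      rwa [one_pow] at this
    have h2 : 3 ≤ p ^ 2 := by
      have := (Fact.out : p.Prime).two_le
      nlinarith
    have h3 : (ψ - 1) ^ p ^ 2 = 0 := by
      obtain ⟨r, hr⟩ := Nat.exists_eq_add_of_le h2
      rw [hr, pow_add, hψ, zero_mul]
    rw [← sub_eq_zero, ← h1, h3]
  · have : Subsingleton E := not_nontrivial_iff_subsingleton.mp hE
    apply LinearMap.ext
    intro v
    exact Subsingleton.elim _ _

variable [Finite Γ]

/-- Two transvections congruent modulo a `p'`-subgroup, one killing the centre of the other. -/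
theorem Tv.eq_of_zero (hinj : Function.Injective ρ) (K : Subgroup Γ) (hK : (Nat.card K).Coprime p)
    {t₁ t₂ : Γ} {u₁ u₂ : E} {f₁ f₂ : Module.Dual (ZMod p) E} (h₁ : Tv ρ t₁ u₁ f₁) (h₂ : Tv ρ t₂ u₂ f₂)
    (hm : t₁⁻¹ * t₂ ∈ K) (h0 : f₁ u₂ = 0) : t₁ = t₂ := by
  set r := t₁⁻¹ * t₂ with hr
  have h1 : ∀ v, ρ r v = v + f₂ v • u₂ - f₁ v • u₁ := by
    intro v
    rw [hr, map_mul, Module.End.mul_apply, h₂.app, h₁.inv_app, map_add, map_smul, h0]
    simp
  have hM : ∀ v, (ρ r - 1) v = f₂ v • u₂ - f₁ v • u₁ := by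
    intro v
    simp only [LinearMap.sub_apply, Module.End.one_apply, h1]
    abel
  have h3 : (ρ r - 1) ^ 3 = 0 := by
    apply LinearMap.ext
    intro v
    rw [pow_succ, pow_succ, pow_one]
    simp only [Module.End.mul_apply, LinearMap.zero_apply]
    rw [hM v, hM (f₂ v • u₂ - f₁ v • u₁)]
    simp only [map_sub, map_smul, h₂.fu, h₁.fu, h0, smul_eq_mul, mul_zero, sub_zero, zero_smul]
    rw [hM]
    simp [h₂.fu, h0]
  have h4 : ρ (r ^ p ^ 2) = 1 := by
    rw [map_pow]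
    exact unipotent_pow h3
  have h5 : r ^ p ^ 2 = 1 := hinj (by rw [h4, map_one])
  have h6 : r ^ Nat.card K = 1 := by
    have := pow_card_eq_one' (x := (⟨r, hm⟩ : K))
    exact congrArg Subtype.val this
  have h7 : orderOf r = 1 := Nat.eq_one_of_dvd_coprimes (Nat.Coprime.pow_right 2 hK)
    (orderOf_dvd_of_pow_eq_one h6) (orderOf_dvd_of_pow_eq_one h5)
  have h8 : r = 1 := orderOf_eq_one_iff.mp h7
  rw [hr, inv_mul_eq_one] at h8
  exact h8

/-- The class of `t₁` modulo `K`, main lemma. -/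
theorem Tv.eq_conj (hinj : Function.Injective ρ) (K : Subgroup Γ) [K.Normal] (hK : (Nat.card K).Coprime p)
    {t₁ t₂ t₃ : Γ} {u₁ u₂ u₃ : E} {f₁ f₂ f₃ : Module.Dual (ZMod p) E} (h₁ : Tv ρ t₁ u₁ f₁) (h₂ : Tv ρ t₂ u₂ f₂)
    (h₃ : Tv ρ t₃ u₃ f₃) (h12 : t₁⁻¹ * t₂ ∈ K) (h13 : t₁⁻¹ * t₃ ∈ K) (hne12 : t₁ ≠ t₂) (hne13 : t₁ ≠ t₃) :
    ∃ n : ℕ, t₃ = t₁ ^ n * t₂ * (t₁ ^ n)⁻¹ := by
  have hβ : f₂ u₁ ≠ 0 := by
    intro h0
    apply hne12
    have h21 : t₂⁻¹ * t₁ ∈ K := by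
      have := K.inv_mem h12
      simpa using this
    exact (Tv.eq_of_zero hinj K hK h₂ h₁ h21 h0).symm
  have hγ : f₁ u₃ ≠ 0 := fun h0 => hne13 (Tv.eq_of_zero hinj K hK h₁ h₃ h13 h0)
  set c : ZMod p := f₂ u₃ / (f₂ u₁ * f₁ u₃) with hc
  set n := c.val with hn
  have hnc : (n : ZMod p) = c := ZMod.natCast_zmod_val c
  refine ⟨n, ?_⟩
  have htc := h₂.conj (t₁ ^ n)
  have hkey : (f₂ ∘ₗ (ρ (t₁ ^ n)⁻¹ : E →ₗ[ZMod p] E)) u₃ = 0 := by
    show f₂ (ρ (t₁ ^ n)⁻¹ u₃) = 0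
    rw [← inv_pow, h₁.inv_pow_app, map_sub, map_smul, hnc, hc, smul_eq_mul]
    field_simp
    ring
  have hmem : (t₁ ^ n * t₂ * (t₁ ^ n)⁻¹)⁻¹ * t₃ ∈ K := by
    -- work modulo `K`
    have hπ : ∀ x y : Γ, x⁻¹ * y ∈ K ↔ (QuotientGroup.mk' K x) = QuotientGroup.mk' K y := by
      intro x y
      rw [← QuotientGroup.eq]
      rfl
    rw [hπ] at h12 h13 ⊢
    rw [map_mul, map_mul, map_inv, map_pow, ← h12, ← h13]
    group
  exact (Tv.eq_of_zero hinj K hK htc h₃ hmem hkey).symm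

end Basic

end Cfsg.Agent.Lib.FFTv
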