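import Mathlib
import Cfsg.Agent.Lib.FFTv
import Cfsg.Agent.Lib.Replacement
import Cfsg.Agent.Lib.QuadSL2

/-!
# Pairs of transvections.
-/

set_option autoImplicit false
set_option linter.unusedSectionVars false
set_option linter.style.haveILetI false

open scoped commutatorElement
open Cfsg

namespace Cfsg.Agent.Lib.FFPair

open Cfsg.Agent.Lib.FFMod Cfsg.Agent.Lib.FFTv Cfsg.Agent.Lib.QuadPair

section Pair

variable {p : ℕ} [hp : Fact p.Prime] {Γ : Type*} [Group Γ] {E : Type*} [AddCommGroup E]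
  [Module (ZMod p) E]

/-- A pair of transvections, each moving the centre of the other. -/
structure Pair (ρ : Γ →* Module.End (ZMod p) E) (t₁ t₂ : Γ) (u₁ u₂ : E)
    (f₁ f₂ : Module.Dual (ZMod p) E) : Prop where
  h₁ : Tv ρ t₁ u₁ f₁
  h₂ : Tv ρ t₂ u₂ f₂
  ha : f₁ u₂ ≠ 0
  hb : f₂ u₁ ≠ 0

/-- The plane. -/
def pP (u₁ u₂ : E) : Submodule (ZMod p) E := Submodule.span (ZMod p) {u₁, u₂}

/-- The complement. -/
def pZ (f₁ f₂ : Module.Dual (ZMod p) E) : Submodule (ZMod p) E :=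
  LinearMap.ker f₁ ⊓ LinearMap.ker f₂

/-- The group generated. -/
def pL (t₁ t₂ : Γ) : Subgroup Γ := Subgroup.closure {t₁, t₂}

theorem mem_pZ {f₁ f₂ : Module.Dual (ZMod p) E} {z : E} : z ∈ pZ f₁ f₂ ↔ f₁ z = 0 ∧ f₂ z = 0 := by
  simp [pZ, LinearMap.mem_ker]

theorem mem_pP {u₁ u₂ w : E} : w ∈ pP (p := p) u₁ u₂ ↔ ∃ a b : ZMod p, a • u₁ + b • u₂ = w :=
  Submodule.mem_span_pair

theorem left_mem_pL {t₁ t₂ : Γ} : t₁ ∈ pL t₁ t₂ := Subgroup.subset_closure (by simp)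
theorem right_mem_pL {t₁ t₂ : Γ} : t₂ ∈ pL t₁ t₂ := Subgroup.subset_closure (by simp)

variable {ρ : Γ →* Module.End (ZMod p) E} {t₁ t₂ : Γ} {u₁ u₂ : E}
  {f₁ f₂ : Module.Dual (ZMod p) E}

namespace Pair

theorem swap (h : Pair ρ t₁ t₂ u₁ u₂ f₁ f₂) : Pair ρ t₂ t₁ u₂ u₁ f₂ f₁ := ⟨h.h₂, h.h₁, h.hb, h.ha⟩

theorem decomp (h : Pair ρ t₁ t₂ u₁ u₂ f₁ f₂) (v : E) :
    v - (f₂ v / f₂ u₁) • u₁ - (f₁ v / f₁ u₂) • u₂ ∈ pZ f₁ f₂ := by
  have h1 := h.ha
  have h2 := h.hb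
  rw [mem_pZ]
  constructor
  · simp only [map_sub, map_smul, h.h₁.fu, smul_eq_mul, mul_zero, sub_zero]
    field_simp
    ring
  · simp only [map_sub, map_smul, h.h₂.fu, smul_eq_mul, mul_zero, sub_zero]
    field_simp
    ring

theorem coord (h : Pair ρ t₁ t₂ u₁ u₂ f₁ f₂) (a b : ZMod p) :
    f₂ (a • u₁ + b • u₂) / f₂ u₁ = a ∧ f₁ (a • u₁ + b • u₂) / f₁ u₂ = b := by
  have h1 := h.ha
  have h2 := h.hb
  constructor
  · simp only [map_add, map_smul, h.h₂.fu, smul_eq_mul, mul_zero, add_zero]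
    field_simp
  · simp only [map_add, map_smul, h.h₁.fu, smul_eq_mul, mul_zero, zero_add]
    field_simp

theorem eq_coord (h : Pair ρ t₁ t₂ u₁ u₂ f₁ f₂) {w : E} (hw : w ∈ pP (p := p) u₁ u₂) :
    w = (f₂ w / f₂ u₁) • u₁ + (f₁ w / f₁ u₂) • u₂ := by
  obtain ⟨a, b, rfl⟩ := mem_pP.mp hw
  obtain ⟨h1, h2⟩ := h.coord a b
  rw [h1, h2]

theorem inf_eq (h : Pair ρ t₁ t₂ u₁ u₂ f₁ f₂) : pP (p := p) u₁ u₂ ⊓ pZ f₁ f₂ = ⊥ := by
  rw [eq_bot_iff]
  rintro w ⟨hw, hz⟩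
  have h1 := h.eq_coord hw
  rw [SetLike.mem_coe, mem_pZ] at hz
  rw [hz.1, hz.2] at h1
  simpa using h1

theorem sup_eq (h : Pair ρ t₁ t₂ u₁ u₂ f₁ f₂) : pP (p := p) u₁ u₂ ⊔ pZ f₁ f₂ = ⊤ := by
  rw [eq_top_iff]
  intro v _
  have h1 := h.decomp v
  have h2 : (f₂ v / f₂ u₁) • u₁ + (f₁ v / f₁ u₂) • u₂ ∈ pP (p := p) u₁ u₂ := mem_pP.mpr ⟨_, _, rfl⟩
  have h3 := Submodule.add_mem_sup h2 h1
  convert h3 using 1
  abel

theorem card_P [Finite E] (h : Pair ρ t₁ t₂ u₁ u₂ f₁ f₂) : Nat.card (pP (p := p) u₁ u₂) = p ^ 2 := by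
  let φ : ZMod p × ZMod p → pP (p := p) u₁ u₂ := fun x => ⟨x.1 • u₁ + x.2 • u₂, mem_pP.mpr ⟨_, _, rfl⟩⟩
  have hφ : Function.Bijective φ := by
    constructor
    · rintro ⟨a, b⟩ ⟨c, d⟩ hab
      have h1 : a • u₁ + b • u₂ = c • u₁ + d • u₂ := congrArg Subtype.val hab
      obtain ⟨h2, h3⟩ := h.coord a b
      obtain ⟨h4, h5⟩ := h.coord c d
      rw [h1] at h2 h3
      rw [Prod.mk.injEq]
      exact ⟨h2.symm.trans h4, h3.symm.trans h5⟩
    · rintro ⟨w, hw⟩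
      obtain ⟨a, b, rfl⟩ := mem_pP.mp hw
      exact ⟨(a, b), rfl⟩
  rw [← Nat.card_congr (Equiv.ofBijective φ hφ), Nat.card_prod, Nat.card_zmod]
  ring

theorem sub_mem_P (h : Pair ρ t₁ t₂ u₁ u₂ f₁ f₂) {g : Γ} (hg : g ∈ pL t₁ t₂) (v : E) :
    ρ g v - v ∈ pP (p := p) u₁ u₂ := by
  induction hg using Subgroup.closure_induction generalizing v with
  | mem x hx =>
    rcases hx with rfl | hx
    · rw [h.h₁.app, add_sub_cancel_left]
      exact Submodule.smul_mem _ _ (Submodule.subset_span (by simp))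
    · rcases hx with rfl
      rw [h.h₂.app, add_sub_cancel_left]
      exact Submodule.smul_mem _ _ (Submodule.subset_span (by simp))
  | one => simp
  | mul x y _ _ hx hy =>
    have : ρ (x * y) v - v = (ρ x (ρ y v) - ρ y v) + (ρ y v - v) := by
      rw [map_mul, Module.End.mul_apply]
      abel
    rw [this]
    exact Submodule.add_mem _ (hx _) (hy _)
  | inv x _ hx =>
    have h1 := hx (ρ x⁻¹ v)
    rw [rho_rho_inv] at h1
    have : ρ x⁻¹ v - v = -(v - ρ x⁻¹ v) := by abel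
    rw [this]
    exact Submodule.neg_mem _ h1

theorem map_P (h : Pair ρ t₁ t₂ u₁ u₂ f₁ f₂) {g : Γ} (hg : g ∈ pL t₁ t₂) {w : E}
    (hw : w ∈ pP (p := p) u₁ u₂) : ρ g w ∈ pP (p := p) u₁ u₂ := by
  have := Submodule.add_mem _ (h.sub_mem_P hg w) hw
  simpa using this

theorem fix_Z (h : Pair ρ t₁ t₂ u₁ u₂ f₁ f₂) {g : Γ} (hg : g ∈ pL t₁ t₂) {z : E}
    (hz : z ∈ pZ f₁ f₂) : ρ g z = z := by
  rw [mem_pZ] at hz
  induction hg using Subgroup.closure_induction with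
  | mem x hx =>
    rcases hx with rfl | hx
    · rw [h.h₁.app, hz.1, zero_smul, add_zero]
    · rcases hx with rfl
      rw [h.h₂.app, hz.2, zero_smul, add_zero]
  | one => simp
  | mul x y _ _ hx hy => rw [map_mul, Module.End.mul_apply, hy, hx]
  | inv x _ hx =>
    have h1 := rho_inv_rho (ρ := ρ) x z
    rwa [hx] at h1

theorem comS_eq (h : Pair ρ t₁ t₂ u₁ u₂ f₁ f₂) : comS ρ (pL t₁ t₂) = pP (p := p) u₁ u₂ := by
  apply le_antisymm
  · rw [comS, Submodule.span_le]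
    rintro w ⟨b, hb, v, rfl⟩
    exact h.sub_mem_P hb v
  · rw [pP, Submodule.span_le]
    rintro w hw
    rcases hw with rfl | hw
    · have h1 := sub_mem_comS ρ (left_mem_pL (t₁ := t₁) (t₂ := t₂)) u₂
      rw [h.h₁.app, add_sub_cancel_left] at h1
      have h2 := Submodule.smul_mem _ (f₁ u₂)⁻¹ h1
      rwa [smul_smul, inv_mul_cancel₀ h.ha, one_smul] at h2
    · rcases hw with rfl
      have h1 := sub_mem_comS ρ (right_mem_pL (t₁ := t₁) (t₂ := t₂)) u₁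
      rw [h.h₂.app, add_sub_cancel_left] at h1
      have h2 := Submodule.smul_mem _ (f₂ u₁)⁻¹ h1
      rwa [smul_smul, inv_mul_cancel₀ h.hb, one_smul] at h2

theorem fixS_eq (h : Pair ρ t₁ t₂ u₁ u₂ f₁ f₂) : fixS ρ (pL t₁ t₂) = pZ f₁ f₂ := by
  apply le_antisymm
  · intro v hv
    rw [mem_pZ]
    constructor
    · have h1 := hv t₁ left_mem_pL
      rw [h.h₁.app] at h1
      have h2 : f₁ v • u₁ = 0 := by
        have : v + f₁ v • u₁ = v + 0 := by rw [add_zero]; exact h1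
        exact add_left_cancel this
      exact (smul_eq_zero.mp h2).resolve_right h.h₁.u0
    · have h1 := hv t₂ right_mem_pL
      rw [h.h₂.app] at h1
      have h2 : f₂ v • u₂ = 0 := by
        have : v + f₂ v • u₂ = v + 0 := by rw [add_zero]; exact h1
        exact add_left_cancel this
      exact (smul_eq_zero.mp h2).resolve_right h.h₂.u0
  · intro z hz g hg
    exact h.fix_Z hg hz

theorem eq_one_of_fix (h : Pair ρ t₁ t₂ u₁ u₂ f₁ f₂) (hinj : Function.Injective ρ) {g : Γ}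
    (hg : g ∈ pL t₁ t₂) (hfix : ∀ w ∈ pP (p := p) u₁ u₂, ρ g w = w) : g = 1 := by
  apply hinj
  rw [map_one]
  apply LinearMap.ext
  intro v
  have h1 := h.decomp v
  have h2 : (f₂ v / f₂ u₁) • u₁ + (f₁ v / f₁ u₂) • u₂ ∈ pP (p := p) u₁ u₂ := mem_pP.mpr ⟨_, _, rfl⟩
  have h3 : v = ((f₂ v / f₂ u₁) • u₁ + (f₁ v / f₁ u₂) • u₂) +
      (v - (f₂ v / f₂ u₁) • u₁ - (f₁ v / f₁ u₂) • u₂) := by abel
  show ρ g v = v
  rw [h3, map_add, hfix _ h2, h.fix_Z hg h1]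

end Pair

/-- The matrix of an element on the plane, in the basis `u₁, u₂`. -/
noncomputable def pMat (ρ : Γ →* Module.End (ZMod p) E) (u₁ u₂ : E) (f₁ f₂ : Module.Dual (ZMod p) E) (g : Γ) :
    Matrix (Fin 2) (Fin 2) (ZMod p) :=
  !![f₂ (ρ g u₁) / f₂ u₁, f₂ (ρ g u₂) / f₂ u₁; f₁ (ρ g u₁) / f₁ u₂, f₁ (ρ g u₂) / f₁ u₂]

namespace Pair

theorem coord_apply (h : Pair ρ t₁ t₂ u₁ u₂ f₁ f₂) {g : Γ} (hg : g ∈ pL t₁ t₂) (v : E) :
    f₂ (ρ g v) / f₂ u₁ = (f₂ (ρ g u₁) / f₂ u₁) * (f₂ v / f₂ u₁) + (f₂ (ρ g u₂) / f₂ u₁) * (f₁ v / f₁ u₂) ∧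
    f₁ (ρ g v) / f₁ u₂ = (f₁ (ρ g u₁) / f₁ u₂) * (f₂ v / f₂ u₁) + (f₁ (ρ g u₂) / f₁ u₂) * (f₁ v / f₁ u₂) := by
  have h1 := h.decomp v
  set a := f₂ v / f₂ u₁ with ha
  set b := f₁ v / f₁ u₂ with hb
  have h3 : v = a • u₁ + b • u₂ + (v - a • u₁ - b • u₂) := by abel
  have h4 : ρ g v = a • ρ g u₁ + b • ρ g u₂ + (v - a • u₁ - b • u₂) := by
    conv_lhs => rw [h3]
    rw [map_add, map_add, map_smul, map_smul, h.fix_Z hg h1]
  rw [mem_pZ] at h1
  have hα := h.ha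
  have hβ := h.hb
  constructor
  · rw [h4, map_add, map_add, map_smul, map_smul, h1.2]
    simp only [smul_eq_mul, add_zero]
    field_simp
  · rw [h4, map_add, map_add, map_smul, map_smul, h1.1]
    simp only [smul_eq_mul, add_zero]
    field_simp

theorem pMat_mul (h : Pair ρ t₁ t₂ u₁ u₂ f₁ f₂) {g : Γ} (hg : g ∈ pL t₁ t₂) (k : Γ) :
    pMat ρ u₁ u₂ f₁ f₂ (g * k) = pMat ρ u₁ u₂ f₁ f₂ g * pMat ρ u₁ u₂ f₁ f₂ k := by
  obtain ⟨h1, h2⟩ := h.coord_apply hg (ρ k u₁)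
  obtain ⟨h3, h4⟩ := h.coord_apply hg (ρ k u₂)
  ext i j
  fin_cases i <;> fin_cases j <;> simp [pMat, Matrix.mul_apply, Fin.sum_univ_two]
  · exact h1
  · exact h3
  · exact h2
  · exact h4

theorem pMat_one (h : Pair ρ t₁ t₂ u₁ u₂ f₁ f₂) : pMat ρ u₁ u₂ f₁ f₂ 1 = 1 := by
  have hα := h.ha
  have hβ := h.hb
  ext i j
  fin_cases i <;> fin_cases j <;> simp [pMat, h.h₁.fu, h.h₂.fu, hα, hβ]

theorem pMat_t₁ (h : Pair ρ t₁ t₂ u₁ u₂ f₁ f₂) (n : ℕ) :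
    pMat ρ u₁ u₂ f₁ f₂ (t₁ ^ n) = !![1, (n : ZMod p) * f₁ u₂; 0, 1] := by
  have hα := h.ha
  have hβ := h.hb
  have e : ∀ v, ρ (t₁ ^ n) v = v + ((n : ZMod p) * f₁ v) • u₁ := h.h₁.pow_app n
  unfold pMat
  rw [e, e]
  ext i j
  fin_cases i <;> fin_cases j <;> simp [h.h₁.fu, h.h₂.fu, hα, hβ]

theorem pMat_t₂ (h : Pair ρ t₁ t₂ u₁ u₂ f₁ f₂) (n : ℕ) :
    pMat ρ u₁ u₂ f₁ f₂ (t₂ ^ n) = !![1, 0; (n : ZMod p) * f₂ u₁, 1] := by
  have hα := h.ha
  have hβ := h.hb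
  have e : ∀ v, ρ (t₂ ^ n) v = v + ((n : ZMod p) * f₂ v) • u₂ := h.h₂.pow_app n
  unfold pMat
  rw [e, e]
  ext i j
  fin_cases i <;> fin_cases j <;> simp [h.h₁.fu, h.h₂.fu, hα, hβ]

theorem det_pMat (h : Pair ρ t₁ t₂ u₁ u₂ f₁ f₂) {g : Γ} (hg : g ∈ pL t₁ t₂) :
    (pMat ρ u₁ u₂ f₁ f₂ g).det = 1 := by
  induction hg using Subgroup.closure_induction with
  | mem x hx =>
    rcases hx with rfl | hx
    · have := h.pMat_t₁ 1
      rw [pow_one] at this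
      rw [this, Matrix.det_fin_two_of]
      ring
    · rcases hx with rfl
      have := h.pMat_t₂ 1
      rw [pow_one] at this
      rw [this, Matrix.det_fin_two_of]
      ring
  | one => rw [h.pMat_one, Matrix.det_one]
  | mul x y hx _ h1 h2 => rw [h.pMat_mul hx, Matrix.det_mul, h1, h2, one_mul]
  | inv x hx h1 =>
    have h2 := h.pMat_mul (Subgroup.inv_mem _ hx) x
    rw [inv_mul_cancel, h.pMat_one] at h2
    have h3 := congrArg Matrix.det h2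
    rw [Matrix.det_one, Matrix.det_mul, h1, mul_one] at h3
    exact h3.symm

/-- The representation on the plane. -/
noncomputable def phi (h : Pair ρ t₁ t₂ u₁ u₂ f₁ f₂) : pL t₁ t₂ →* SL2 (ZMod p) where
  toFun g := ⟨pMat ρ u₁ u₂ f₁ f₂ g, h.det_pMat g.2⟩
  map_one' := Subtype.ext h.pMat_one
  map_mul' x y := Subtype.ext (h.pMat_mul x.2 y)

theorem phi_coe (h : Pair ρ t₁ t₂ u₁ u₂ f₁ f₂) (g : pL t₁ t₂) :
    (h.phi g : Matrix (Fin 2) (Fin 2) (ZMod p)) = pMat ρ u₁ u₂ f₁ f₂ g := rfl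

theorem phi_inj (h : Pair ρ t₁ t₂ u₁ u₂ f₁ f₂) (hinj : Function.Injective ρ) :
    Function.Injective h.phi := by
  rw [injective_iff_map_eq_one]
  rintro ⟨g, hg⟩ h1
  have h2 : pMat ρ u₁ u₂ f₁ f₂ g = 1 := by
    have := congrArg (fun z : SL2 (ZMod p) => (z : Matrix (Fin 2) (Fin 2) (ZMod p))) h1
    simpa [phi_coe] using this
  have e00 : f₂ (ρ g u₁) / f₂ u₁ = 1 := congrFun (congrFun h2 0) 0
  have e01 : f₂ (ρ g u₂) / f₂ u₁ = 0 := congrFun (congrFun h2 0) 1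
  have e10 : f₁ (ρ g u₁) / f₁ u₂ = 0 := congrFun (congrFun h2 1) 0
  have e11 : f₁ (ρ g u₂) / f₁ u₂ = 1 := congrFun (congrFun h2 1) 1
  have hu₁ : ρ g u₁ = u₁ := by
    have h3 := h.eq_coord (h.map_P hg (show u₁ ∈ pP (p := p) u₁ u₂ from Submodule.subset_span (by simp)))
    rw [h3, e00, e10, one_smul, zero_smul, add_zero]
  have hu₂ : ρ g u₂ = u₂ := by
    have h3 := h.eq_coord (h.map_P hg (show u₂ ∈ pP (p := p) u₁ u₂ from Submodule.subset_span (by simp)))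
    rw [h3, e01, e11, one_smul, zero_smul, zero_add]
  apply Subtype.ext
  apply h.eq_one_of_fix hinj hg
  intro w hw
  obtain ⟨a, b, rfl⟩ := mem_pP.mp hw
  rw [map_add, map_smul, map_smul, hu₁, hu₂]

theorem phi_surj (h : Pair ρ t₁ t₂ u₁ u₂ f₁ f₂) : Function.Surjective h.phi := by
  rw [← MonoidHom.range_eq_top, eq_top_iff, ← Cfsg.Agent.Lib.QdPair.closure_uu_ll (p := p),
    Subgroup.closure_le]
  have hα := h.ha
  have hβ := h.hb
  rintro x hx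
  rcases hx with rfl | hx
  · refine ⟨⟨t₁ ^ ((f₁ u₂)⁻¹).val, Subgroup.pow_mem _ left_mem_pL _⟩, ?_⟩
    apply Subtype.ext
    rw [phi_coe]
    show pMat ρ u₁ u₂ f₁ f₂ _ = !![1, 1; 0, 1]
    rw [h.pMat_t₁, ZMod.natCast_zmod_val, inv_mul_cancel₀ hα]
  · rcases hx with rfl
    refine ⟨⟨t₂ ^ ((f₂ u₁)⁻¹).val, Subgroup.pow_mem _ right_mem_pL _⟩, ?_⟩
    apply Subtype.ext
    rw [phi_coe]
    show pMat ρ u₁ u₂ f₁ f₂ _ = !![1, 0; 1, 1]
    rw [h.pMat_t₂, ZMod.natCast_zmod_val, inv_mul_cancel₀ hβ]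

/-- The isomorphism with `SL(2, p)`. -/
noncomputable def equiv (h : Pair ρ t₁ t₂ u₁ u₂ f₁ f₂) (hinj : Function.Injective ρ) :
    pL t₁ t₂ ≃* SL2 (ZMod p) :=
  MulEquiv.ofBijective h.phi ⟨h.phi_inj hinj, h.phi_surj⟩

end Pair

end Pair

section Pure

variable {p : ℕ} [hp : Fact p.Prime]

theorem card_SL2 (h : p = 2 ∨ p = 3) : Nat.card (SL2 (ZMod p)) = p * (p ^ 2 - 1) := by
  have h2 : Nat.card (Matrix.SpecialLinearGroup (Fin 2) (ZMod 2)) = 2 * (2 ^ 2 - 1) := by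
    rw [Nat.card_eq_fintype_card]; decide +kernel
  have h3 : Nat.card (Matrix.SpecialLinearGroup (Fin 2) (ZMod 3)) = 3 * (3 ^ 2 - 1) := by
    rw [Nat.card_eq_fintype_card]; decide +kernel
  rcases h with rfl | rfl
  · exact h2
  · exact h3

/-- A unimodular matrix with a nonzero fixed vector is unipotent. -/
theorem mat_sq_zero {A B C D a b : ZMod p} (hd : A * D - B * C = 1) (h1 : a = A * a + B * b)
    (h2 : b = C * a + D * b) (hne : a ≠ 0 ∨ b ≠ 0) :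
    (!![A, B; C, D] - 1) * (!![A, B; C, D] - 1) = (0 : Matrix (Fin 2) (Fin 2) (ZMod p)) := by
  have ht : A + D - 2 = 0 := by
    rcases hne with h | h
    · apply (mul_eq_zero.mp (?_ : (A + D - 2) * a = 0)).resolve_right h
      linear_combination a * hd + (D - 1) * h1 - B * h2
    · apply (mul_eq_zero.mp (?_ : (A + D - 2) * b = 0)).resolve_right h
      linear_combination b * hd + (A - 1) * h2 - C * h1
  ext i j
  fin_cases i <;> fin_cases j <;> simp [Matrix.mul_apply, Fin.sum_univ_two, Matrix.one_apply]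
  · linear_combination A * ht - hd
  · linear_combination B * ht
  · linear_combination C * ht
  · linear_combination D * ht - hd

end Pure

section Main

variable {p : ℕ} [hp : Fact p.Prime] {Γ : Type*} [Group Γ] {E : Type*} [AddCommGroup E]
  [Module (ZMod p) E] {ρ : Γ →* Module.End (ZMod p) E} {t₁ t₂ : Γ} {u₁ u₂ : E}
  {f₁ f₂ : Module.Dual (ZMod p) E}

variable [Finite Γ] [Finite E]

theorem eq_one_of_mem (K : Subgroup Γ) (hK : (Nat.card K).Coprime p) {x : Γ} (hx : x ∈ K) {n : ℕ}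
    (hn : x ^ p ^ n = 1) : x = 1 := by
  have h6 : x ^ Nat.card K = 1 := by
    have := pow_card_eq_one' (x := (⟨x, hx⟩ : K))
    exact congrArg Subtype.val this
  have h7 : orderOf x = 1 := Nat.eq_one_of_dvd_coprimes (Nat.Coprime.pow_right n hK)
    (orderOf_dvd_of_pow_eq_one h6) (orderOf_dvd_of_pow_eq_one hn)
  exact orderOf_eq_one_iff.mp h7

theorem inv_mul_mem_iff (K : Subgroup Γ) [K.Normal] (x y : Γ) :
    x⁻¹ * y ∈ K ↔ (QuotientGroup.mk' K x) = QuotientGroup.mk' K y := by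
  rw [← QuotientGroup.eq]
  rfl

variable (K : Subgroup Γ) [K.Normal]

namespace Pair'

theorem map_le (hm : t₁⁻¹ * t₂ ∈ K) :
    (pL t₁ t₂).map (QuotientGroup.mk' K) ≤ Subgroup.zpowers (QuotientGroup.mk' K t₁) := by
  rw [pL, MonoidHom.map_closure, Subgroup.closure_le]
  rw [inv_mul_mem_iff] at hm
  rintro x hx
  rw [Set.image_pair] at hx
  rcases hx with rfl | hx
  · exact Subgroup.mem_zpowers _
  · rcases hx with rfl
    rw [← hm]
    exact Subgroup.mem_zpowers _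

theorem comm_mod (hm : t₁⁻¹ * t₂ ∈ K) {x y : Γ} (hx : x ∈ pL t₁ t₂) (hy : y ∈ pL t₁ t₂) :
    x * y * x⁻¹ * y⁻¹ ∈ K := by
  have h1 := map_le K hm (Subgroup.mem_map_of_mem _ hx)
  have h2 := map_le K hm (Subgroup.mem_map_of_mem _ hy)
  obtain ⟨k, hk⟩ := Subgroup.mem_zpowers_iff.mp h1
  obtain ⟨l, hl⟩ := Subgroup.mem_zpowers_iff.mp h2
  rw [← QuotientGroup.ker_mk' K, MonoidHom.mem_ker, map_mul, map_mul, map_mul, map_inv, map_inv, ← hk, ← hl]
  have : (QuotientGroup.mk' K t₁ ^ k) * (QuotientGroup.mk' K t₁ ^ l) =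
      (QuotientGroup.mk' K t₁ ^ l) * (QuotientGroup.mk' K t₁ ^ k) := by
    rw [← zpow_add, ← zpow_add, add_comm]
  rw [this]
  group

end Pair'

variable {K}

namespace Pair

variable (h : Pair ρ t₁ t₂ u₁ u₂ f₁ f₂) (hinj : Function.Injective ρ)
  (hK : (Nat.card K).Coprime p) (hm : t₁⁻¹ * t₂ ∈ K)
include h hinj hK hm

theorem p_two_or_three : p = 2 ∨ p = 3 := by
  by_cases hp2 : p = 2
  · exact Or.inl hp2
  right
  have h2 : (2 : ZMod p) ≠ 0 := Cfsg.Agent.Lib.QdPair.two_ne hp2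
  let d₀ : SL2 (ZMod p) := ⟨!![2, 0; 0, 2⁻¹], by simp [Matrix.det_fin_two, h2]⟩
  let e := h.equiv hinj
  let u : SL2 (ZMod p) := Cfsg.Agent.Lib.QdPair.uu p
  have key : d₀ * u = u ^ 4 * d₀ := by
    apply Subtype.ext
    rw [Matrix.SpecialLinearGroup.coe_mul, Matrix.SpecialLinearGroup.coe_mul,
      Cfsg.Agent.Lib.QdPair.uu_pow_coe, Cfsg.Agent.Lib.QdPair.uu_coe]
    show !![2, 0; 0, 2⁻¹] * !![1, 1; 0, 1] = !![1, _; 0, 1] * !![2, 0; 0, 2⁻¹]
    ext i j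
    fin_cases i <;> fin_cases j <;> simp [Matrix.mul_apply, Fin.sum_univ_two]
    field_simp
    norm_num
  set a : pL t₁ t₂ := e.symm u with ha
  set g : pL t₁ t₂ := e.symm d₀ with hg
  have h3 : g * a = a ^ 4 * g := by
    rw [ha, hg, ← map_mul, key, map_mul, map_pow]
  have h4 : ((g : Γ) * a * (g : Γ)⁻¹ * (a : Γ)⁻¹) ∈ K := Pair'.comm_mod K hm g.2 a.2
  have h5 : (g : Γ) * a = (a : Γ) ^ 4 * g := congrArg Subtype.val h3
  have h6 : (a : Γ) ^ 3 ∈ K := by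
    have : (g : Γ) * a * (g : Γ)⁻¹ * (a : Γ)⁻¹ = (a : Γ) ^ 3 := by
      rw [h5]
      group
    rwa [this] at h4
  have h7 : (a : Γ) ^ p = 1 := by
    have : a ^ p = 1 := by
      rw [ha, ← map_pow, Cfsg.Agent.Lib.QdPair.uu_p, map_one]
    exact congrArg Subtype.val this
  have h8 : (a : Γ) ^ 3 = 1 := by
    apply eq_one_of_mem K hK h6 (n := 1)
    rw [pow_one, ← pow_mul, mul_comm, pow_mul, h7, one_pow]
  have h9 : a ≠ 1 := by
    intro h10
    have h11 : u = 1 := by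
      rw [ha] at h10
      have := congrArg e h10
      simpa using this
    have h12 := congrArg (fun z : SL2 (ZMod p) => ((z : Matrix (Fin 2) (Fin 2) (ZMod p)) 0 1)) h11
    simp [u, Cfsg.Agent.Lib.QdPair.uu_coe] at h12
  have h13 : orderOf (a : Γ) = p := by
    apply orderOf_eq_prime h7
    intro h10
    exact h9 (Subtype.ext h10)
  have h14 : p ∣ 3 := by
    rw [← h13]
    exact orderOf_dvd_of_pow_eq_one h8
  exact (Nat.prime_dvd_prime_iff_eq hp.out Nat.prime_three).mp h14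

/-- Conjugates under `K`. -/
theorem conj_gen {y : Γ} (hy : y ∈ K) {t : Γ} {u : E} {f : Module.Dual (ZMod p) E} (ht : Tv ρ t u f)
    (htm : t₁⁻¹ * t ∈ K) : y * t * y⁻¹ ∈ pL t₁ t₂ := by
  have hne : t₁ ≠ t₂ := by
    rintro rfl
    apply h.ha
    have h1 := h.h₁.app u₂
    rw [h.h₂.app, h.h₂.fu, zero_smul, add_zero] at h1
    have h2 : u₂ + f₁ u₂ • u₁ = u₂ + 0 := by rw [add_zero]; exact h1.symm
    exact (smul_eq_zero.mp (add_left_cancel h2)).resolve_right h.h₁.u0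
  by_cases he : t₁ = y * t * y⁻¹
  · rw [← he]
    exact left_mem_pL
  have hm2 : t₁⁻¹ * (y * t * y⁻¹) ∈ K := by
    have h1 : t⁻¹ * (y * t * y⁻¹) ∈ K := by
      have : t⁻¹ * (y * t * y⁻¹) = (t⁻¹ * y * t) * y⁻¹ := by group
      rw [this]
      apply K.mul_mem _ (K.inv_mem hy)
      have := Subgroup.Normal.conj_mem (inferInstance : K.Normal) y hy t⁻¹
      simpa using this
    have h2 := K.mul_mem htm h1
    have h3 : t₁⁻¹ * t * (t⁻¹ * (y * t * y⁻¹)) = t₁⁻¹ * (y * t * y⁻¹) := by group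
    rwa [h3] at h2
  obtain ⟨n, hn⟩ := Tv.eq_conj hinj K hK h.h₁ h.h₂ (ht.conj y) hm hm2 hne he
  rw [hn]
  have h1 : t₁ ^ n ∈ pL t₁ t₂ := Subgroup.pow_mem _ left_mem_pL n
  exact (pL t₁ t₂).mul_mem ((pL t₁ t₂).mul_mem h1 right_mem_pL) ((pL t₁ t₂).inv_mem h1)

theorem conj_mem {y : Γ} (hy : y ∈ K) {g : Γ} (hg : g ∈ pL t₁ t₂) : y * g * y⁻¹ ∈ pL t₁ t₂ := by
  induction hg using Subgroup.closure_induction with
  | mem x hx =>
    rcases hx with rfl | hx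
    · exact h.conj_gen hinj hK hm hy h.h₁ (by simp [K.one_mem])
    · rcases hx with rfl
      exact h.conj_gen hinj hK hm hy h.h₂ hm
  | one => simp [(pL t₁ t₂).one_mem]
  | mul a b _ _ ha hb =>
    have : y * (a * b) * y⁻¹ = (y * a * y⁻¹) * (y * b * y⁻¹) := by group
    rw [this]
    exact (pL t₁ t₂).mul_mem ha hb
  | inv a _ ha =>
    have : y * a⁻¹ * y⁻¹ = (y * a * y⁻¹)⁻¹ := by group
    rw [this]
    exact (pL t₁ t₂).inv_mem ha

theorem map_P_K {y : Γ} (hy : y ∈ K) {w : E} (hw : w ∈ pP (p := p) u₁ u₂) : ρ y w ∈ pP (p := p) u₁ u₂ := by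
  rw [← h.comS_eq] at hw ⊢
  induction hw using Submodule.span_induction with
  | mem x hx =>
    obtain ⟨b, hb, v, rfl⟩ := hx
    have h1 := sub_mem_comS ρ (h.conj_mem hinj hK hm hy hb) (ρ y v)
    have h2 : ρ (y * b * y⁻¹) (ρ y v) - ρ y v = ρ y (ρ b v - v) := by
      rw [map_mul, map_mul, Module.End.mul_apply, Module.End.mul_apply, rho_inv_rho, map_sub]
    rwa [h2] at h1
  | zero => simp
  | add a b _ _ ha hb =>
    rw [map_add]
    exact Submodule.add_mem _ ha hb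
  | smul c a _ ha =>
    rw [map_smul]
    exact Submodule.smul_mem _ _ ha

theorem map_Z_K {y : Γ} (hy : y ∈ K) {z : E} (hz : z ∈ pZ f₁ f₂) : ρ y z ∈ pZ f₁ f₂ := by
  rw [← h.fixS_eq] at hz ⊢
  intro g hg
  have h1 := hz (y⁻¹ * g * y⁻¹⁻¹) (h.conj_mem hinj hK hm (K.inv_mem hy) hg)
  rw [inv_inv] at h1
  have h2 : ρ g (ρ y z) = ρ y (ρ (y⁻¹ * g * y) z) := by
    rw [map_mul, map_mul, Module.End.mul_apply, Module.End.mul_apply, rho_rho_inv]
  rw [h2, h1]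

/-- Order of the core. -/
theorem card_Q : Nat.card ↥(pL t₁ t₂ ⊓ K) = p ^ 2 - 1 := by
  have hpp := h.p_two_or_three hinj hK hm
  have hcL : Nat.card (pL t₁ t₂) = p * (p ^ 2 - 1) := by
    rw [Nat.card_congr (h.equiv hinj).toEquiv, card_SL2 hpp]
  set Q := pL t₁ t₂ ⊓ K with hQ
  have hnorm : Subgroup.zpowers t₁ ≤ Subgroup.normalizer (Q : Set Γ) := by
    rw [Subgroup.zpowers_le, Subgroup.mem_normalizer_iff]
    intro n
    rw [hQ, Subgroup.mem_inf, Subgroup.mem_inf]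
    constructor
    · rintro ⟨h1, h2⟩
      refine ⟨?_, (inferInstance : K.Normal).conj_mem n h2 t₁⟩
      exact (pL t₁ t₂).mul_mem ((pL t₁ t₂).mul_mem left_mem_pL h1) ((pL t₁ t₂).inv_mem left_mem_pL)
    · rintro ⟨h1, h2⟩
      have e : n = t₁⁻¹ * (t₁ * n * t₁⁻¹) * t₁ := by group
      rw [e]
      refine ⟨?_, ?_⟩
      · have : t₁⁻¹ ∈ pL t₁ t₂ := (pL t₁ t₂).inv_mem left_mem_pL
        exact (pL t₁ t₂).mul_mem ((pL t₁ t₂).mul_mem this h1) left_mem_pL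
      · have := (inferInstance : K.Normal).conj_mem _ h2 t₁⁻¹
        simpa using this
  have hsup : Subgroup.zpowers t₁ ⊔ Q = pL t₁ t₂ := by
    apply le_antisymm
    · refine sup_le ?_ inf_le_left
      rw [Subgroup.zpowers_le]
      exact left_mem_pL
    · have h1 : t₁ ∈ Subgroup.zpowers t₁ ⊔ Q :=
        (le_sup_left : Subgroup.zpowers t₁ ≤ Subgroup.zpowers t₁ ⊔ Q) (Subgroup.mem_zpowers t₁)
      have h2 : t₁⁻¹ * t₂ ∈ Q :=
        ⟨(pL t₁ t₂).mul_mem ((pL t₁ t₂).inv_mem left_mem_pL) right_mem_pL, hm⟩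
      have h3 := (Subgroup.zpowers t₁ ⊔ Q).mul_mem h1
        ((le_sup_right : Q ≤ Subgroup.zpowers t₁ ⊔ Q) h2)
      rw [mul_inv_cancel_left] at h3
      rw [pL, Subgroup.closure_le, Set.insert_subset_iff, Set.singleton_subset_iff]
      exact ⟨h1, h3⟩
  have hcard := Cfsg.Agent.Lib.Replacement.card_sup_mul_card_inf (Subgroup.zpowers t₁) Q hnorm
  rw [hsup, hcL] at hcard
  have hz : Nat.card (Subgroup.zpowers t₁) ∣ p := by
    rw [Nat.card_zpowers]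
    apply orderOf_dvd_of_pow_eq_one
    apply hinj
    rw [map_one]
    exact h.h₁.pow_p
  have hp0 : 0 < p := hp.out.pos
  have hpos : 0 < Nat.card ↥(Subgroup.zpowers t₁ ⊓ Q) := Nat.card_pos
  have hle : Nat.card (Subgroup.zpowers t₁) ≤ p := Nat.le_of_dvd hp0 hz
  have hQpos : 0 < Nat.card Q := Nat.card_pos
  have h2 : p ^ 2 - 1 ≤ Nat.card Q := by
    have h3 : p * (p ^ 2 - 1) ≤ p * Nat.card Q := by
      calc p * (p ^ 2 - 1) ≤ p * (p ^ 2 - 1) * Nat.card ↥(Subgroup.zpowers t₁ ⊓ Q) :=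
            Nat.le_mul_of_pos_right _ hpos
        _ = Nat.card (Subgroup.zpowers t₁) * Nat.card Q := hcard
        _ ≤ p * Nat.card Q := Nat.mul_le_mul_right _ hle
    exact Nat.le_of_mul_le_mul_left h3 hp0
  have hcQ : (Nat.card Q).Coprime p :=
    Nat.Coprime.coprime_dvd_left (Subgroup.card_dvd_of_le inf_le_right) hK
  have hdvd : Nat.card Q ∣ p * (p ^ 2 - 1) := by
    rw [← hcL]
    exact Subgroup.card_dvd_of_le inf_le_left
  have hd2 : Nat.card Q ∣ p ^ 2 - 1 := hcQ.dvd_of_dvd_mul_left hdvd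
  have hp2 : 0 < p ^ 2 - 1 := by
    have := hp.out.two_le
    have : 4 ≤ p ^ 2 := by nlinarith
    omega
  exact le_antisymm (Nat.le_of_dvd hp2 hd2) h2

/-- The core acts fixed point freely on the plane. -/
theorem fpf {r : Γ} (hr : r ∈ pL t₁ t₂ ⊓ K) {w : E} (hw : w ∈ pP (p := p) u₁ u₂) (hw0 : w ≠ 0)
    (hfix : ρ r w = w) : r = 1 := by
  have hrL := hr.1
  have hdet := h.det_pMat hrL
  rw [pMat, Matrix.det_fin_two_of] at hdet
  obtain ⟨h1, h2⟩ := h.coord_apply hrL w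
  rw [hfix] at h1 h2
  have hne : f₂ w / f₂ u₁ ≠ 0 ∨ f₁ w / f₁ u₂ ≠ 0 := by
    by_contra hcon
    push Not at hcon
    apply hw0
    rw [h.eq_coord hw, hcon.1, hcon.2]
    simp
  have hsq := mat_sq_zero hdet h1 h2 hne
  have hpow := Cfsg.Agent.Lib.QuadSL2.pow_p_of_sq_zero (p := p) hsq
  have h3 : h.phi (⟨r, hrL⟩ ^ p) = 1 := by
    apply Subtype.ext
    rw [map_pow]
    rw [Matrix.SpecialLinearGroup.coe_pow]
    exact hpow
  have h4 : (⟨r, hrL⟩ : pL t₁ t₂) ^ p = 1 := by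
    apply h.phi_inj hinj
    rw [h3, map_one]
  have h5 : r ^ p = 1 := congrArg Subtype.val h4
  exact eq_one_of_mem K hK hr.2 (n := 1) (by rwa [pow_one])

/-- The core is regular on the nonzero vectors of the plane. -/
theorem regular {w w' : E} (hw : w ∈ pP (p := p) u₁ u₂) (hw0 : w ≠ 0)
    (hw' : w' ∈ pP (p := p) u₁ u₂) (hw0' : w' ≠ 0) : ∃ r ∈ pL t₁ t₂ ⊓ K, ρ r w = w' := by
  classical
  let Q := pL t₁ t₂ ⊓ K
  let S := {x : pP (p := p) u₁ u₂ // x ≠ 0}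
  have hS : Nat.card S = p ^ 2 - 1 := by
    have h1 := Set.ncard_add_ncard_compl ({0} : Set (pP (p := p) u₁ u₂))
    rw [Set.ncard_singleton, h.card_P] at h1
    have h2 : Nat.card S = (({0} : Set (pP (p := p) u₁ u₂))ᶜ).ncard := by
      rw [← Nat.card_coe_set_eq]
      rfl
    rw [h2]
    omega
  let φ : Q → S := fun r => ⟨⟨ρ r w, h.map_P r.2.1 hw⟩, by
    intro h0
    have h1 : ρ (r : Γ) w = 0 := congrArg Subtype.val h0
    apply hw0
    have h2 := rho_inv_rho (ρ := ρ) (r : Γ) w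
    rw [h1, map_zero] at h2
    exact h2.symm⟩
  have hφ : Function.Injective φ := by
    intro x y hxy
    have h1 : ρ (x : Γ) w = ρ (y : Γ) w := congrArg (fun z : S => ((z : pP (p := p) u₁ u₂) : E)) hxy
    have h2 : ρ ((x : Γ)⁻¹ * y) w = w := by
      rw [map_mul, Module.End.mul_apply, ← h1, rho_inv_rho]
    have h3 := h.fpf hinj hK hm (Q.mul_mem (Q.inv_mem x.2) y.2) hw hw0 h2
    apply Subtype.ext
    rw [inv_mul_eq_one] at h3
    exact h3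
  have hbij : Function.Bijective φ := by
    apply hφ.bijective_of_nat_card_le
    rw [hS, h.card_Q hinj hK hm]
  obtain ⟨r, hr⟩ := hbij.2 ⟨⟨w', hw'⟩, fun h0 => hw0' (congrArg Subtype.val h0)⟩
  exact ⟨r, r.2, congrArg (fun z : S => ((z : pP (p := p) u₁ u₂) : E)) hr⟩

end Pair

end Main

end Cfsg.Agent.Lib.FFPair
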