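import Mathlib
import Cfsg.Agent.Lib.FFPair

/-!
# The dichotomy for a transvection and a pair of transvections.
-/

set_option autoImplicit false
set_option linter.unusedSectionVars false
set_option linter.style.haveILetI false

open scoped commutatorElement
open Cfsg

namespace Cfsg.Agent.Lib.FFDich

open Cfsg.Agent.Lib.FFMod Cfsg.Agent.Lib.FFTv Cfsg.Agent.Lib.QuadPair Cfsg.Agent.Lib.FFPair

section Main

variable {p : ℕ} [hp : Fact p.Prime] {Γ : Type*} [Group Γ] {E : Type*} [AddCommGroup E]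
  [Module (ZMod p) E] {ρ : Γ →* Module.End (ZMod p) E} [Finite Γ] [Finite E]

theorem sub_eq_of_le_of_card {X Y : Submodule (ZMod p) E} (h : X ≤ Y) (hc : Nat.card Y ≤ Nat.card X) : X = Y := by
  apply SetLike.coe_injective
  apply Set.eq_of_subset_of_ncard_le h
  · rw [← Nat.card_coe_set_eq, ← Nat.card_coe_set_eq]
    exact hc

variable {K : Subgroup Γ} [K.Normal] (hinj : Function.Injective ρ) (hK : (Nat.card K).Coprime p)

include hinj hK

theorem pair_of_ne {t₁ t₂ : Γ} {u₁ u₂ : E} {f₁ f₂ : Module.Dual (ZMod p) E} (h₁ : Tv ρ t₁ u₁ f₁)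
    (h₂ : Tv ρ t₂ u₂ f₂) (hm : t₁⁻¹ * t₂ ∈ K) (hne : t₁ ≠ t₂) : Pair ρ t₁ t₂ u₁ u₂ f₁ f₂ := by
  refine ⟨h₁, h₂, fun h0 => hne (Tv.eq_of_zero hinj K hK h₁ h₂ hm h0), fun h0 => hne ?_⟩
  have h21 : t₂⁻¹ * t₁ ∈ K := by
    have := K.inv_mem hm
    simpa using this
  exact (Tv.eq_of_zero hinj K hK h₂ h₁ h21 h0).symm

theorem conj_mod {s y : Γ} (hy : y ∈ K) : s⁻¹ * (y * s * y⁻¹) ∈ K := by
  have : s⁻¹ * (y * s * y⁻¹) = (s⁻¹ * y * s) * y⁻¹ := by group
  rw [this]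
  apply K.mul_mem _ (K.inv_mem hy)
  have := Subgroup.Normal.conj_mem (inferInstance : K.Normal) y hy s⁻¹
  simpa using this

omit hinj hK in
theorem center_mem {t₁ t₂ : Γ} {u₁ u₂ : E} {f₁ f₂ : Module.Dual (ZMod p) E} (h : Pair ρ t₁ t₂ u₁ u₂ f₁ f₂)
    {g : Γ} {c : E} {f : Module.Dual (ZMod p) E} (hT : Tv ρ g c f) (hg : g ∈ pL t₁ t₂) : c ∈ pP (p := p) u₁ u₂ := by
  obtain ⟨v, hv⟩ : ∃ v, f v ≠ 0 := by
    by_contra hcon
    push Not at hcon
    exact hT.f0 (LinearMap.ext hcon)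
  have h1 := h.sub_mem_P hg v
  rw [hT.app, add_sub_cancel_left] at h1
  have h2 := Submodule.smul_mem _ (f v)⁻¹ h1
  rwa [smul_smul, inv_mul_cancel₀ hv, one_smul] at h2

variable {t₁ t₂ : Γ} {u₁ u₂ : E} {f₁ f₂ : Module.Dual (ZMod p) E}
  (h : Pair ρ t₁ t₂ u₁ u₂ f₁ f₂) (hm : t₁⁻¹ * t₂ ∈ K)

include h hm

omit hinj hK hm in
theorem u_ne : u₁ ≠ u₂ := by
  rintro rfl
  exact h.ha h.h₁.fu

omit hinj hK hm in
theorem u_sum_ne : u₁ + u₂ ≠ 0 := by
  intro h0
  have h1 := congrArg f₁ h0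
  rw [map_add, h.h₁.fu, zero_add, map_zero] at h1
  exact h.ha h1

omit hm hinj hK in
theorem u₁_mem : u₁ ∈ pP (p := p) u₁ u₂ := Submodule.subset_span (by simp)

omit hm hinj hK in
theorem u₂_mem : u₂ ∈ pP (p := p) u₁ u₂ := Submodule.subset_span (by simp)

/-- Case of centre in the complement: the functional vanishes on the plane. -/
theorem case_A {s : Γ} {u : E} {f : Module.Dual (ZMod p) E} (hs : Tv ρ s u f) (hu : u ∈ pZ f₁ f₂) :
    ∀ w ∈ pP (p := p) u₁ u₂, f w = 0 := by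
  -- invariance of `f` under the core
  have hinv : ∀ r ∈ pL t₁ t₂ ⊓ K, ∀ v, f (ρ r v) = f v := by
    intro r hr v
    have hr1 : ρ r u = u := h.fix_Z hr.1 hu
    have hc := hs.conj r
    rw [hr1] at hc
    have h1 : s = r * s * r⁻¹ := Tv.eq_of_zero hinj K hK hs hc (conj_mod hinj hK hr.2) hs.fu
    have h2 : ρ s (ρ r v) = ρ r (ρ s v) := by
      rw [← Module.End.mul_apply, ← Module.End.mul_apply, ← map_mul, ← map_mul]
      congr 2
      conv_lhs => rw [h1]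
      group
    rw [hs.app, hs.app, map_add, map_smul, hr1] at h2
    have h3 := add_left_cancel h2
    have h4 : (f (ρ r v) - f v) • u = 0 := by rw [sub_smul, h3, sub_self]
    exact sub_eq_zero.mp ((smul_eq_zero.mp h4).resolve_right hs.u0)
  have hconst : ∀ w ∈ pP (p := p) u₁ u₂, w ≠ 0 → f w = f u₁ := by
    intro w hw hw0
    obtain ⟨r, hr, hrw⟩ := h.regular hinj hK hm (u₁_mem h) h.h₁.u0 hw hw0
    rw [← hrw, hinv r hr]
  have h1 : f (u₁ + u₂) = f u₁ := hconst _ (Submodule.add_mem _ (u₁_mem h) (u₂_mem h)) (u_sum_ne h)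
  have h2 : f u₂ = f u₁ := hconst _ (u₂_mem h) h.h₂.u0
  have h3 : f u₂ = 0 := by
    rw [map_add] at h1
    exact add_eq_left.mp h1
  have h4 : f u₁ = 0 := by rw [← h2, h3]
  intro w hw
  obtain ⟨a, b, rfl⟩ := mem_pP.mp hw
  simp [h3, h4]

/-- A transvection with centre in the plane and functional vanishing on the complement lies in the group. -/
theorem mem_of_plane {s : Γ} {u : E} {f : Module.Dual (ZMod p) E} (hs : Tv ρ s u f) (hu : u ∈ pP (p := p) u₁ u₂)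
    (hf : ∀ z ∈ pZ f₁ f₂, f z = 0) : s ∈ pL t₁ t₂ := by
  obtain ⟨r, hr, hru⟩ := h.regular hinj hK hm (u₁_mem h) h.h₁.u0 hu hs.u0
  have hc := hs.conj r⁻¹
  rw [inv_inv] at hc
  have h1 : ρ r⁻¹ u = u₁ := by rw [← hru, rho_inv_rho]
  rw [h1] at hc
  set f₀ : Module.Dual (ZMod p) E := f ∘ₗ (ρ r : E →ₗ[ZMod p] E) with hf₀
  have hf₀z : ∀ z ∈ pZ f₁ f₂, f₀ z = 0 := by
    intro z hz
    show f (ρ r z) = 0
    rw [h.fix_Z hr.1 hz]
    exact hf z hz
  have hf₀u : f₀ u₁ = 0 := hc.fu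
  set c : ZMod p := f₀ u₂ / f₁ u₂ with hc'
  set n := c.val with hn
  have hnc : (n : ZMod p) = c := ZMod.natCast_zmod_val c
  have key : r⁻¹ * s * r = t₁ ^ n := by
    apply hinj
    apply LinearMap.ext
    intro v
    rw [hc.app, h.h₁.pow_app, hnc]
    have h2 := hf₀z _ (h.decomp v)
    have h3 : f₀ v = c * f₁ v := by
      simp only [map_sub, map_smul, hf₀u, smul_eq_mul, mul_zero, sub_zero] at h2
      have hα := h.ha
      rw [hc']
      field_simp
      field_simp at h2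
      linear_combination h2
    rw [h3]
  have h2 : s = r * t₁ ^ n * r⁻¹ := by
    rw [← key]
    group
  rw [h2]
  have hrL := hr.1
  have h3 : t₁ ^ n ∈ pL t₁ t₂ := Subgroup.pow_mem _ left_mem_pL n
  exact (pL t₁ t₂).mul_mem ((pL t₁ t₂).mul_mem hrL h3) ((pL t₁ t₂).inv_mem hrL)

/-- The case where the centre lies outside the complement. -/
theorem case_B {s y : Γ} {u : E} {f : Module.Dual (ZMod p) E} (hs : Tv ρ s u f) (hy : y ∈ K) (hne : y * s * y⁻¹ ≠ s)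
    (hu : u ∉ pZ f₁ f₂) : pL s (y * s * y⁻¹) = pL t₁ t₂ := by
  classical
  have hc := hs.conj y
  set s' := y * s * y⁻¹ with hs'
  set u' := ρ y u with hu'
  set f' := f ∘ₗ (ρ y⁻¹ : E →ₗ[ZMod p] E) with hf'
  have hm' : s⁻¹ * s' ∈ K := conj_mod hinj hK hy
  have h' : Pair ρ s s' u u' f f' := pair_of_ne hinj hK hs hc hm' (Ne.symm hne)
  -- all `K`-conjugates of `u` lie in the second plane
  have hcen : ∀ r ∈ K, ρ r u ∈ pP (p := p) u u' := by
    intro r hr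
    have h1 := h'.conj_mem hinj hK hm' hr (left_mem_pL (t₁ := s) (t₂ := s'))
    exact center_mem h' (hs.conj r) h1
  -- decompose `u`
  set a := f₂ u / f₂ u₁ with ha
  set b := f₁ u / f₁ u₂ with hb
  set w := a • u₁ + b • u₂ with hw
  have hwP : w ∈ pP (p := p) u₁ u₂ := mem_pP.mpr ⟨_, _, rfl⟩
  have hz : u - w ∈ pZ f₁ f₂ := by
    have := h.decomp u
    rwa [sub_sub] at this
  have hw0 : w ≠ 0 := by
    intro h0
    apply hu
    rwa [h0, sub_zero] at hz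
  have hdiff : ∀ r ∈ pL t₁ t₂ ⊓ K, ρ r w - w ∈ pP (p := p) u u' := by
    intro r hr
    have h1 : ρ r (u - w) = u - w := h.fix_Z hr.1 hz
    have h2 : ρ r w - w = ρ r u - u := by
      rw [map_sub] at h1
      have : ρ r u - ρ r w = u - w := h1
      have h3 : ρ r w - w = ρ r u - u - (ρ r u - ρ r w - (u - w)) := by abel
      rw [h3, this]
      abel
    rw [h2]
    exact Submodule.sub_mem _ (hcen r hr.2) (u₁_mem h')
  have hkey : ∀ x ∈ pP (p := p) u₁ u₂, x + w ≠ 0 → x ∈ pP (p := p) u u' := by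
    intro x hx hx0
    obtain ⟨r, hr, hrw⟩ := h.regular hinj hK hm hwP hw0 (Submodule.add_mem _ hx hwP) hx0
    have := hdiff r hr
    rwa [hrw, add_sub_cancel_right] at this
  have hPle : pP (p := p) u₁ u₂ ≤ pP (p := p) u u' := by
    intro x hx
    by_cases hx0 : x + w = 0
    · -- choose a vector different from `0`, `x`
      obtain ⟨v, hvP, hv0, hvx⟩ : ∃ v ∈ pP (p := p) u₁ u₂, v ≠ 0 ∧ v ≠ x := by
        by_cases h1 : u₁ = x
        · exact ⟨u₂, u₂_mem h, h.h₂.u0, fun h2 => u_ne h (h1.trans h2.symm)⟩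
        · exact ⟨u₁, u₁_mem h, h.h₁.u0, h1⟩
      have h1 : v ∈ pP (p := p) u u' := by
        apply hkey v hvP
        intro h2
        apply hvx
        have : v + w = x + w := h2.trans hx0.symm
        exact add_right_cancel this
      have h2 : x - v ∈ pP (p := p) u u' := by
        apply hkey _ (Submodule.sub_mem _ hx hvP)
        intro h3
        apply hv0
        have h4 : x - v + w = (x + w) - v := by abel
        rw [h4, hx0, zero_sub, neg_eq_zero] at h3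
        exact h3
      have := Submodule.add_mem _ h1 h2
      rwa [add_sub_cancel] at this
    · exact hkey x hx hx0
  have hPeq : pP (p := p) u₁ u₂ = pP (p := p) u u' :=
    sub_eq_of_le_of_card hPle (by rw [h.card_P, h'.card_P])
  -- some nontrivial element of the core
  obtain ⟨r₀, hr₀, hr₀1⟩ : ∃ r ∈ pL t₁ t₂ ⊓ K, r ≠ 1 := by
    obtain ⟨r, hr, hrw⟩ := h.regular hinj hK hm (u₁_mem h) h.h₁.u0 (u₂_mem h) h.h₂.u0
    refine ⟨r, hr, ?_⟩
    rintro rfl
    rw [map_one] at hrw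
    exact u_ne h hrw
  have hZle : pZ f f' ≤ pZ f₁ f₂ := by
    intro z hz'
    have h1 : ρ r₀ z - z ∈ pP (p := p) u u' := by
      rw [← hPeq]
      exact h.sub_mem_P hr₀.1 z
    have h2 : ρ r₀ z - z ∈ pZ f f' :=
      Submodule.sub_mem _ (h'.map_Z_K hinj hK hm' hr₀.2 hz') hz'
    have h3 : ρ r₀ z - z ∈ pP (p := p) u u' ⊓ pZ f f' := ⟨h1, h2⟩
    rw [h'.inf_eq] at h3
    have h4 : ρ r₀ z = z := sub_eq_zero.mp ((Submodule.mem_bot _).mp h3)
    -- decompose `z`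
    have hd := h.decomp z
    set w₁ := (f₂ z / f₂ u₁) • u₁ + (f₁ z / f₁ u₂) • u₂ with hw₁
    have hw₁P : w₁ ∈ pP (p := p) u₁ u₂ := mem_pP.mpr ⟨_, _, rfl⟩
    have hd' : z - w₁ ∈ pZ f₁ f₂ := by
      rw [hw₁, ← sub_sub]
      exact hd
    have h5 : ρ r₀ w₁ = w₁ := by
      have h6 : ρ r₀ (z - w₁) = z - w₁ := h.fix_Z hr₀.1 hd'
      rw [map_sub, h4] at h6
      exact sub_right_injective h6
    have h7 : w₁ = 0 := by
      by_contra h8
      exact hr₀1 (h.fpf hinj hK hm hr₀ hw₁P h8 h5)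
    rw [h7, sub_zero] at hd'
    exact hd'
  have hcard : ∀ {t₁ t₂ : Γ} {u₁ u₂ : E} {f₁ f₂ : Module.Dual (ZMod p) E}, Pair ρ t₁ t₂ u₁ u₂ f₁ f₂ →
      p ^ 2 * Nat.card (pZ f₁ f₂) = Nat.card E := by
    intro t₁ t₂ u₁ u₂ f₁ f₂ h
    have := card_sup_mul_card_inf_sub (pP (p := p) u₁ u₂) (pZ f₁ f₂)
    rw [h.inf_eq, h.sup_eq, h.card_P] at this
    simpa using this.symm
  have hZeq : pZ f f' = pZ f₁ f₂ := by
    apply sub_eq_of_le_of_card hZle
    have h1 := hcard h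
    have h2 := hcard h'
    have hp2 : 0 < p ^ 2 := by have := hp.out.pos; positivity
    exact le_of_eq (Nat.eq_of_mul_eq_mul_left hp2 (h1.trans h2.symm))
  have hfz : ∀ z ∈ pZ f₁ f₂, f z = 0 := by
    intro z hz
    rw [← hZeq] at hz
    exact (mem_pZ.mp hz).1
  have hf'z : ∀ z ∈ pZ f₁ f₂, f' z = 0 := by
    intro z hz
    rw [← hZeq] at hz
    exact (mem_pZ.mp hz).2
  have hsL : s ∈ pL t₁ t₂ := mem_of_plane hinj hK h hm hs (hPeq ▸ u₁_mem h') hfz
  have hs'L : s' ∈ pL t₁ t₂ := mem_of_plane hinj hK h hm hc (hPeq ▸ u₂_mem h') hf'z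
  have hle : pL s s' ≤ pL t₁ t₂ := by
    rw [pL, Subgroup.closure_le, Set.insert_subset_iff, Set.singleton_subset_iff]
    exact ⟨hsL, hs'L⟩
  apply Subgroup.eq_of_le_of_card_ge hle
  rw [Nat.card_congr (h'.equiv hinj).toEquiv, Nat.card_congr (h.equiv hinj).toEquiv]

/-- The dichotomy. -/
theorem dich {s y : Γ} {u : E} {f : Module.Dual (ZMod p) E} (hs : Tv ρ s u f) (hy : y ∈ K) (hne : y * s * y⁻¹ ≠ s) :
    pL s (y * s * y⁻¹) = pL t₁ t₂ ∨
      (pP (p := p) u (ρ y u) ≤ pZ f₁ f₂ ∧ pP (p := p) u₁ u₂ ≤ pZ f (f ∘ₗ (ρ y⁻¹ : E →ₗ[ZMod p] E))) := by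
  by_cases hu : u ∈ pZ f₁ f₂
  · right
    have hA := case_A hinj hK h hm hs hu
    constructor
    · rw [pP, Submodule.span_le, Set.insert_subset_iff, Set.singleton_subset_iff]
      exact ⟨hu, h.map_Z_K hinj hK hm hy hu⟩
    · intro w hw
      rw [mem_pZ]
      refine ⟨hA w hw, ?_⟩
      exact hA _ (h.map_P_K hinj hK hm (K.inv_mem hy) hw)
  · left
    exact case_B hinj hK h hm hs hy hne hu

end Main

end Cfsg.Agent.Lib.FFDich
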