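import Mathlib
import Cfsg.Agent.Lib.FFDich
import Cfsg.Agent.Lib.FFBridge

/-!
# The structure of groups generated by transvections with self-centralizing `p'`-core.
-/

set_option autoImplicit false
set_option linter.unusedSectionVars false
set_option linter.style.haveILetI false

open scoped commutatorElement
open Cfsg

namespace Cfsg.Agent.Lib.FFStruct

open Cfsg.Agent.Lib.FFMod Cfsg.Agent.Lib.FFTv Cfsg.Agent.Lib.QuadPair Cfsg.Agent.Lib.FFPair
  Cfsg.Agent.Lib.FFDich

section Pure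

variable {p : ℕ} [hp : Fact p.Prime] {E : Type*} [AddCommGroup E] [Module (ZMod p) E]

/-- Decomposition of a module from a family of pairs of complements. -/
theorem module_decomp {ι : Type*} [Finite ι] (P Z : ι → Submodule (ZMod p) E) (hinf : ∀ i, P i ⊓ Z i = ⊥)
    (hsup : ∀ i, P i ⊔ Z i = ⊤) (hPZ : ∀ i j, i ≠ j → P j ≤ Z i) :
    iSupIndep (fun o : Option ι => o.elim (⨅ i, Z i) P) ∧ (⨅ i, Z i) ⊔ (⨆ i, P i) = ⊤ := by
  classical
  haveI := Fintype.ofFinite ι
  constructor
  · intro o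
    rcases o with _ | i
    · -- the fixed part
      rw [disjoint_iff, eq_bot_iff]
      rintro x ⟨hx1, hx2⟩
      have hx3 : x ∈ ⨆ i, P i := by
        refine (iSup₂_le ?_ : (⨆ j, ⨆ _ : j ≠ none, Option.elim j (⨅ i, Z i) P) ≤ ⨆ i, P i) hx2
        rintro (_ | j) hj
        · exact absurd rfl hj
        · exact le_iSup P j
      have hx1' : ∀ j, x ∈ Z j := by
        intro j
        exact (iInf_le Z j) hx1
      have key : ∀ y ∈ ⨆ i, P i, ∃ q : ι → E, (∀ i, q i ∈ P i) ∧ ∑ i, q i = y := by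
        intro y hy
        induction hy using Submodule.iSup_induction' with
        | mem i y hy =>
          refine ⟨fun j => if j = i then y else 0, ?_, ?_⟩
          · intro j
            by_cases h : j = i
            · subst h
              simpa using hy
            · simp [h]
          · simp
        | zero => exact ⟨fun _ => 0, fun i => (P i).zero_mem, by simp⟩
        | add y z _ _ hy hz =>
          obtain ⟨q₁, h1, h2⟩ := hy
          obtain ⟨q₂, h3, h4⟩ := hz
          exact ⟨fun i => q₁ i + q₂ i, fun i => (P i).add_mem (h1 i) (h3 i), by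
            rw [Finset.sum_add_distrib, h2, h4]⟩
      obtain ⟨q, hq, hs⟩ := key x hx3
      have hq0 : ∀ j, q j = 0 := by
        intro j
        have h1 : q j = x - ∑ i ∈ Finset.univ.erase j, q i := by
          rw [← hs, ← Finset.add_sum_erase Finset.univ q (Finset.mem_univ j)]
          abel
        have h2 : q j ∈ Z j := by
          rw [h1]
          apply (Z j).sub_mem (hx1' j)
          apply (Z j).sum_mem
          intro i hi
          exact hPZ j i (Finset.ne_of_mem_erase hi).symm (hq i)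
        have h3 : q j ∈ P j ⊓ Z j := ⟨hq j, h2⟩
        rw [hinf] at h3
        exact (Submodule.mem_bot _).mp h3
      rw [← hs, Finset.sum_eq_zero (fun i _ => hq0 i)]
      rfl
    · rw [disjoint_iff, eq_bot_iff, ← hinf i]
      apply inf_le_inf_left
      refine iSup₂_le ?_
      rintro (_ | j) hj
      · exact iInf_le Z i
      · apply hPZ
        intro hij
        exact hj (by rw [hij])
  · rw [eq_top_iff]
    intro x _
    have hx : ∀ i, ∃ q ∈ P i, ∃ z ∈ Z i, q + z = x := by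
      intro i
      have : x ∈ P i ⊔ Z i := by rw [hsup]; trivial
      exact Submodule.mem_sup.mp this
    choose q hq z hz hqz using hx
    have hc : x - ∑ i, q i ∈ ⨅ i, Z i := by
      rw [Submodule.mem_iInf]
      intro j
      have h1 : x - ∑ i, q i = z j - ∑ i ∈ Finset.univ.erase j, q i := by
        rw [← Finset.add_sum_erase Finset.univ q (Finset.mem_univ j)]
        conv_lhs => rw [← hqz j]
        abel
      rw [h1]
      apply (Z j).sub_mem (hz j)
      apply (Z j).sum_mem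
      intro i hi
      exact hPZ j i (Finset.ne_of_mem_erase hi).symm (hq i)
    have hs : ∑ i, q i ∈ ⨆ i, P i :=
      Submodule.sum_mem _ (fun i _ => (le_iSup P i) (hq i))
    have := Submodule.add_mem_sup hc hs
    simpa using this

end Pure

section Main

variable {p : ℕ} [hp : Fact p.Prime] {Γ : Type*} [Group Γ] {E : Type*} [AddCommGroup E]
  [Module (ZMod p) E] {ρ : Γ →* Module.End (ZMod p) E} [Finite Γ] [Finite E]

/-- Being a transvection. -/
def IsTv (ρ : Γ →* Module.End (ZMod p) E) (s : Γ) : Prop :=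
  ∃ (u : E) (f : Module.Dual (ZMod p) E), Tv ρ s u f

/-- An element of order `p` with one-dimensional commutator is a transvection. -/
theorem exists_tv (hinj : Function.Injective ρ) {a : Γ} (ha1 : a ≠ 1) (hap : a ^ p = 1)
    (hc : Nat.card (comS ρ (Subgroup.zpowers a)) = p) : IsTv ρ a := by
  rw [comS_zpowers] at hc
  set R := LinearMap.range (ρ a - 1) with hR
  have hfr : Module.finrank (ZMod p) R = 1 := by
    have h1 := card_eq_pow R
    rw [hc] at h1
    have h2 : p ^ 1 = p ^ Module.finrank (ZMod p) R := by rw [pow_one]; exact h1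
    exact (Nat.pow_right_injective hp.out.two_le h2).symm
  obtain ⟨u₀, hu₀⟩ : ∃ u₀ : R, u₀ ≠ 0 := by
    have : Nontrivial R := by
      apply Module.nontrivial_of_finrank_pos (R := ZMod p)
      omega
    exact exists_ne 0
  have hspan := (finrank_eq_one_iff_of_nonzero' u₀ hu₀).mp hfr
  set u : E := u₀.1 with hu
  have hu0 : u ≠ 0 := fun h0 => hu₀ (Subtype.ext h0)
  obtain ⟨φ, hφ⟩ : ∃ φ : Module.Dual (ZMod p) E, φ u ≠ 0 := by
    by_contra hcon
    push Not at hcon
    exact hu0 ((Module.forall_dual_apply_eq_zero_iff (ZMod p) u).mp hcon)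
  set f : Module.Dual (ZMod p) E := (φ u)⁻¹ • (φ ∘ₗ (ρ a - 1)) with hf
  have happ : ∀ v, ρ a v = v + f v • u := by
    intro v
    obtain ⟨c, hc⟩ := hspan ⟨(ρ a - 1) v, ⟨v, rfl⟩⟩
    have hc' : c • u = (ρ a - 1) v := congrArg Subtype.val hc
    have h1 : f v = c := by
      show (φ u)⁻¹ * φ ((ρ a - 1) v) = c
      rw [← hc', map_smul, smul_eq_mul]
      field_simp
    rw [h1, hc']
    simp
  have hfu : f u = 0 := by
    have hpow : ∀ n : ℕ, ρ (a ^ n) u = (1 + f u) ^ n • u := by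
      intro n
      induction n with
      | zero => simp
      | succ n ih =>
        rw [pow_succ, map_mul, Module.End.mul_apply, happ, map_add, ih, map_smul, ih, smul_smul, ← add_smul,
          pow_succ]
        congr 1
        ring
    have h1 := hpow p
    rw [hap, map_one, ZMod.pow_card] at h1
    have h2 : (f u) • u = 0 := by
      have h3 : u = u + f u • u := by
        rw [add_smul, one_smul] at h1
        exact h1
      have : u + f u • u = u + 0 := by rw [add_zero]; exact h3.symm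
      exact add_left_cancel this
    exact (smul_eq_zero.mp h2).resolve_right hu0
  refine ⟨u, f, happ, hfu, hu0, ?_⟩
  intro h0
  apply ha1
  apply hinj
  rw [map_one]
  apply LinearMap.ext
  intro v
  rw [happ, h0]
  simp

theorem tv_of_BO (h : FFH (p := p) ρ) {A : Subgroup Γ} (hA : IsBO (p := p) ρ A) (hc : Nat.card A = p) :
    ∃ s, IsTv ρ s ∧ A = Subgroup.zpowers s := by
  obtain ⟨a, ha, haA⟩ := Cfsg.Agent.Lib.FFBridge.eq_zpowers_of_card hc
  refine ⟨a, ?_, haA⟩
  have h1 := fF_eq_card h hA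
  unfold fF at h1
  rw [hc] at h1
  have h2 := card_comS_mul_card_fixS ρ a
  rw [← haA, ← h1] at h2
  have h3 : Nat.card (comS ρ (Subgroup.zpowers a)) = p := by
    rw [← haA]
    exact Nat.eq_of_mul_eq_mul_right Nat.card_pos h2
  have ha1 : a ≠ 1 := by
    rintro rfl
    rw [haA] at hc
    simp at hc
    exact hp.out.one_lt.ne hc
  exact exists_tv h.inj ha1 (hA.pow a (haA ▸ Subgroup.mem_zpowers a)) h3

/-- The normal closure under `K`. -/
def ee (K : Subgroup Γ) (s : Γ) : Subgroup Γ := Subgroup.closure {g | ∃ y ∈ K, g = y * s * y⁻¹}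

theorem mem_ee (K : Subgroup Γ) (s : Γ) : s ∈ ee K s :=
  Subgroup.subset_closure ⟨1, K.one_mem, by simp⟩

theorem conj_mem_ee {K : Subgroup Γ} (s : Γ) {y : Γ} (hy : y ∈ K) : y * s * y⁻¹ ∈ ee K s :=
  Subgroup.subset_closure ⟨y, hy, rfl⟩

/-- Subgroup fixing a submodule pointwise. -/
def cenP (ρ : Γ →* Module.End (ZMod p) E) (W : Submodule (ZMod p) E) : Subgroup Γ where
  carrier := {g | ∀ w ∈ W, ρ g w = w}
  mul_mem' := by
    intro a b ha hb w hw
    rw [map_mul, Module.End.mul_apply, hb w hw, ha w hw]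
  one_mem' := by
    intro w _
    rw [map_one]
    rfl
  inv_mem' := by
    intro a ha w hw
    have := rho_inv_rho (ρ := ρ) a w
    rwa [ha w hw] at this

theorem mem_cenP {W : Submodule (ZMod p) E} {g : Γ} : g ∈ cenP ρ W ↔ ∀ w ∈ W, ρ g w = w := Iff.rfl

/-- Commuting from the cross relations. -/
theorem comm_of_cross (hinj : Function.Injective ρ) {X Y : Subgroup Γ} (h1 : comS ρ X ≤ fixS ρ Y)
    (h2 : comS ρ Y ≤ fixS ρ X) {x y : Γ} (hx : x ∈ X) (hy : y ∈ Y) : x * y = y * x := by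
  apply hinj
  apply LinearMap.ext
  intro v
  rw [map_mul, map_mul, Module.End.mul_apply, Module.End.mul_apply]
  have h3 : ρ x (ρ y v - v) = ρ y v - v := h2 (sub_mem_comS ρ hy v) x hx
  have h4 : ρ y (ρ x v - v) = ρ x v - v := h1 (sub_mem_comS ρ hx v) y hy
  rw [map_sub] at h3 h4
  have h5 : ρ x (ρ y v) = ρ y v - v + ρ x v := by rw [← h3]; abel
  have h6 : ρ y (ρ x v) = ρ x v - v + ρ y v := by rw [← h4]; abel
  rw [h5, h6]
  abel

/-- The properties of the factors. -/
structure Fac (ρ : Γ →* Module.End (ZMod p) E) (L : Subgroup Γ) : Prop where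
  two_three : p = 2 ∨ p = 3
  iso : Nonempty (L ≃* SL2 (ZMod p))
  card : Nat.card (comS ρ L) = p ^ 2
  inf : comS ρ L ⊓ fixS ρ L = ⊥
  sup : comS ρ L ⊔ fixS ρ L = ⊤
  faith : ∀ g ∈ L, (∀ w ∈ comS ρ L, ρ g w = w) → g = 1

theorem Fac.inf_cenP {L : Subgroup Γ} (h : Fac ρ L) : L ⊓ cenP ρ (comS ρ L) = ⊥ := by
  rw [eq_bot_iff]
  rintro g ⟨hg, hg2⟩
  exact h.faith g hg hg2

/-- `comS` is preserved by `L`. -/
theorem map_comS (L : Subgroup Γ) {g : Γ} (hg : g ∈ L) {w : E} (hw : w ∈ comS ρ L) : ρ g w ∈ comS ρ L := by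
  have := Submodule.add_mem _ (sub_mem_comS ρ hg w) hw
  simpa using this

theorem mem_fixS_of_mem_cenP {L : Subgroup Γ} {c : Γ} (hc : c ∈ cenP ρ (comS ρ L))
    (hcomm : ∀ g ∈ L, g * c = c * g) (v : E) : ρ c v - v ∈ fixS ρ L := by
  intro g hg
  have h1 : ρ g (ρ c v) = ρ c (ρ g v) := by
    rw [← Module.End.mul_apply, ← Module.End.mul_apply, ← map_mul, ← map_mul, hcomm g hg]
  have h2 : ρ c (ρ g v - v) = ρ g v - v := hc _ (sub_mem_comS ρ hg v)
  rw [map_sub] at h2
  rw [map_sub, h1]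
  have h3 : ρ c (ρ g v) = ρ c v + (ρ g v - v) := by rw [← h2]; abel
  rw [h3]
  abel

theorem comS_cenP_le {L : Subgroup Γ} (C : Subgroup Γ) (hle : C ≤ cenP ρ (comS ρ L))
    (hcomm : ∀ g ∈ L, ∀ c ∈ C, g * c = c * g) : comS ρ C ≤ fixS ρ L := by
  rw [comS, Submodule.span_le]
  rintro w ⟨c, hc, v, rfl⟩
  exact mem_fixS_of_mem_cenP (hle hc) (fun g hg => hcomm g hg c hc) v

variable {K : Subgroup Γ} [K.Normal] (hinj : Function.Injective ρ) (hK : (Nat.card K).Coprime p)
  (hcen : Subgroup.centralizer (K : Set Γ) ≤ K)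

include hinj hK hcen in
theorem exists_move {s : Γ} (hs : IsTv ρ s) : ∃ y ∈ K, y * s * y⁻¹ ≠ s := by
  obtain ⟨u, f, hT⟩ := hs
  by_contra hcon
  push Not at hcon
  have h1 : s ∈ K := by
    apply hcen
    rw [Subgroup.mem_centralizer_iff]
    intro y hy
    have := hcon y hy
    rw [mul_inv_eq_iff_eq_mul] at this
    exact this
  have h2 : s ^ p ^ 1 = 1 := by
    rw [pow_one]
    apply hinj
    rw [map_one]
    exact hT.pow_p
  exact hT.ne_one (eq_one_of_mem K hK h1 h2)

include hinj hK in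
theorem ee_eq {s y : Γ} {u : E} {f : Module.Dual (ZMod p) E} (hs : Tv ρ s u f) (hy : y ∈ K)
    (hne : y * s * y⁻¹ ≠ s) : ee K s = pL s (y * s * y⁻¹) := by
  have h' : Pair ρ s (y * s * y⁻¹) u (ρ y u) f (f ∘ₗ (ρ y⁻¹ : E →ₗ[ZMod p] E)) :=
    pair_of_ne hinj hK hs (hs.conj y) (conj_mod hinj hK hy) (Ne.symm hne)
  apply le_antisymm
  · rw [ee, Subgroup.closure_le]
    rintro g ⟨x, hx, rfl⟩
    exact h'.conj_mem hinj hK (conj_mod hinj hK hy) hx left_mem_pL
  · rw [pL, Subgroup.closure_le, Set.insert_subset_iff, Set.singleton_subset_iff]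
    exact ⟨mem_ee K s, conj_mem_ee s hy⟩

/-- The properties of the factor of a pair. -/
theorem fac_pair {t₁ t₂ : Γ} {u₁ u₂ : E} {f₁ f₂ : Module.Dual (ZMod p) E} (h : Pair ρ t₁ t₂ u₁ u₂ f₁ f₂)
    (hinj : Function.Injective ρ) (hK : (Nat.card K).Coprime p) (hm : t₁⁻¹ * t₂ ∈ K) : Fac ρ (pL t₁ t₂) := by
  refine ⟨h.p_two_or_three hinj hK hm, ⟨h.equiv hinj⟩, ?_, ?_, ?_, ?_⟩
  · rw [h.comS_eq, h.card_P]
  · rw [h.comS_eq, h.fixS_eq, h.inf_eq]
  · rw [h.comS_eq, h.fixS_eq, h.sup_eq]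
  · intro g hg hfix
    rw [h.comS_eq] at hfix
    exact h.eq_one_of_fix hinj hg hfix

include hinj hK hcen in
theorem fac_ee {s : Γ} (hs : IsTv ρ s) : Fac ρ (ee K s) := by
  obtain ⟨y, hy, hne⟩ := exists_move hinj hK hcen hs
  obtain ⟨u, f, hT⟩ := hs
  rw [ee_eq hinj hK hT hy hne]
  exact fac_pair (pair_of_ne hinj hK hT (hT.conj y) (conj_mod hinj hK hy) (Ne.symm hne)) hinj hK
    (conj_mod hinj hK hy)

include hinj hK hcen in
/-- The dichotomy. -/
theorem dich_ee {s s' : Γ} (hs : IsTv ρ s) (hs' : IsTv ρ s') :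
    ee K s = ee K s' ∨ (comS ρ (ee K s') ≤ fixS ρ (ee K s) ∧ comS ρ (ee K s) ≤ fixS ρ (ee K s')) := by
  obtain ⟨y, hy, hne⟩ := exists_move hinj hK hcen hs
  obtain ⟨y', hy', hne'⟩ := exists_move hinj hK hcen hs'
  obtain ⟨u, f, hT⟩ := hs
  obtain ⟨u', f', hT'⟩ := hs'
  rw [ee_eq hinj hK hT hy hne, ee_eq hinj hK hT' hy' hne']
  have h := pair_of_ne hinj hK hT (hT.conj y) (conj_mod hinj hK hy) (Ne.symm hne)
  have h' := pair_of_ne hinj hK hT' (hT'.conj y') (conj_mod hinj hK hy') (Ne.symm hne')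
  rcases dich hinj hK h (conj_mod hinj hK hy) hT' hy' hne' with h1 | ⟨h1, h2⟩
  · exact Or.inl h1.symm
  · right
    rw [h.comS_eq, h.fixS_eq, h'.comS_eq, h'.fixS_eq]
    exact ⟨h1, h2⟩

include hinj hK hcen in
/-- Commuting in the second case. -/
theorem normal_of_gen (hgen : Subgroup.closure {s | IsTv ρ s} = ⊤) {s : Γ} (hs : IsTv ρ s) : (ee K s).Normal := by
  have hle : (⊤ : Subgroup Γ) ≤ Subgroup.normalizer (ee K s : Set Γ) := by
    rw [← hgen, Subgroup.closure_le]
    intro s' hs'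
    rcases dich_ee hinj hK hcen hs hs' with h1 | ⟨h1, h2⟩
    · rw [SetLike.mem_coe, h1]
      exact Subgroup.le_normalizer (mem_ee K s')
    · apply Cfsg.Agent.Lib.Replacement.mem_normalizer_of_forall
      intro g hg
      have := comm_of_cross hinj h1 h2 (mem_ee K s') hg
      rw [this]
      simpa using hg
  rw [← Subgroup.normalizer_eq_top_iff]
  exact top_le_iff.mp hle

section Gen

variable (hgen : Subgroup.closure {s | IsTv ρ s} = ⊤)
include hinj hK hcen hgen

/-- Commuting with the fixer of the plane. -/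
theorem comm_cenP {s : Γ} (hs : IsTv ρ s) {g c : Γ} (hg : g ∈ ee K s) (hc : c ∈ cenP ρ (comS ρ (ee K s))) :
    g * c = c * g := by
  have hN := normal_of_gen hinj hK hcen hgen hs
  have hF := fac_ee hinj hK hcen hs
  have h1 : g * c * g⁻¹ * c⁻¹ ∈ ee K s := by
    have h2 : c * g⁻¹ * c⁻¹ ∈ ee K s := hN.conj_mem _ (Subgroup.inv_mem _ hg) c
    have h3 : g * c * g⁻¹ * c⁻¹ = g * (c * g⁻¹ * c⁻¹) := by group
    rw [h3]
    exact Subgroup.mul_mem _ hg h2
  have h2 : g * c * g⁻¹ * c⁻¹ = 1 := by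
    apply hF.faith _ h1
    intro w hw
    have hc' : ρ c⁻¹ w = w := (cenP ρ (comS ρ (ee K s))).inv_mem hc w hw
    have h3 : ρ g⁻¹ w ∈ comS ρ (ee K s) := map_comS _ (Subgroup.inv_mem _ hg) hw
    rw [map_mul, map_mul, map_mul, Module.End.mul_apply, Module.End.mul_apply, Module.End.mul_apply, hc', hc _ h3,
      rho_rho_inv]
  have h3 : g * c * g⁻¹ = c := by
    rw [mul_inv_eq_one] at h2
    exact h2
  rw [mul_inv_eq_iff_eq_mul] at h3
  exact h3

theorem sup_cenP {s : Γ} (hs : IsTv ρ s) : ee K s ⊔ cenP ρ (comS ρ (ee K s)) = ⊤ := by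
  rw [eq_top_iff, ← hgen, Subgroup.closure_le]
  intro s' hs'
  rcases dich_ee hinj hK hcen hs hs' with h1 | ⟨h1, h2⟩
  · apply (le_sup_left : ee K s ≤ _)
    rw [h1]
    exact mem_ee K s'
  · apply (le_sup_right : cenP ρ (comS ρ (ee K s)) ≤ _)
    intro w hw
    exact h2 hw s' (mem_ee K s')

theorem comS_cenP {s : Γ} (hs : IsTv ρ s) :
    comS ρ (cenP ρ (comS ρ (ee K s))) ≤ fixS ρ (ee K s) :=
  comS_cenP_le _ le_rfl (fun _ hg _ hc => comm_cenP hinj hK hcen hgen hs hg hc)

/-- The family of all factors. -/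
theorem family {ι : Type*} [Finite ι] (F : ι → Subgroup Γ) (hF : Function.Injective F)
    (hF1 : ∀ i, ∃ s, IsTv ρ s ∧ F i = ee K s) (hF2 : ∀ s, IsTv ρ s → ∃ i, F i = ee K s) :
    iSupIndep F ∧ (⨆ i, F i) = ⊤ ∧
      iSupIndep (fun o : Option ι => o.elim (fixS ρ (⊤ : Subgroup Γ)) (fun i => comS ρ (F i))) ∧
      fixS ρ (⊤ : Subgroup Γ) ⊔ (⨆ i, comS ρ (F i)) = ⊤ := by
  have hcross : ∀ i j, i ≠ j → comS ρ (F j) ≤ fixS ρ (F i) := by
    intro i j hij
    obtain ⟨s, hs, hsi⟩ := hF1 i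
    obtain ⟨s', hs', hsj⟩ := hF1 j
    rw [hsi, hsj]
    rcases dich_ee hinj hK hcen hs hs' with h1 | ⟨h1, _⟩
    · exact absurd (hF (hsi.trans (h1.trans hsj.symm))) hij
    · exact h1
  have htop : (⨆ i, F i) = ⊤ := by
    rw [eq_top_iff, ← hgen, Subgroup.closure_le]
    intro s hs
    obtain ⟨i, hi⟩ := hF2 s hs
    apply le_iSup F i
    rw [hi]
    exact mem_ee K s
  have hfix : (⨅ i, fixS ρ (F i)) = fixS ρ (⊤ : Subgroup Γ) := by
    apply le_antisymm
    · intro v hv
      rw [Submodule.mem_iInf] at hv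
      intro g _
      have : g ∈ ⨆ i, F i := by rw [htop]; trivial
      exact Subgroup.iSup_induction F (C := fun x => ρ x v = v) this (fun i x hx => hv i x hx)
        (by rw [map_one]; rfl) (fun x y hx hy => by rw [map_mul, Module.End.mul_apply, hy, hx])
    · exact le_iInf (fun i => fixS_anti ρ le_top)
  have hdec := module_decomp (p := p) (fun i => comS ρ (F i)) (fun i => fixS ρ (F i))
    (fun i => by
      obtain ⟨s, hs, hsi⟩ := hF1 i
      rw [hsi]
      exact (fac_ee hinj hK hcen hs).inf)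
    (fun i => by
      obtain ⟨s, hs, hsi⟩ := hF1 i
      rw [hsi]
      exact (fac_ee hinj hK hcen hs).sup)
    hcross
  rw [hfix] at hdec
  refine ⟨?_, htop, hdec.1, hdec.2⟩
  intro i
  obtain ⟨s, hs, hsi⟩ := hF1 i
  have hFi := fac_ee hinj hK hcen hs
  rw [disjoint_iff, eq_bot_iff]
  have h1 : (⨆ j, ⨆ _ : j ≠ i, F j) ≤ cenP ρ (comS ρ (F i)) := by
    refine iSup₂_le ?_
    intro j hj g hg w hw
    exact (hcross j i hj) hw g hg
  have h2 := hFi.inf_cenP
  rw [← hsi] at h2
  rw [← h2]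
  exact inf_le_inf_left _ h1

end Gen

omit hinj hK hcen [K.Normal] [Finite E] in
theorem conj_ee {y : Γ} (hy : y ∈ K) (s : Γ) {g : Γ} (hg : g ∈ ee K s) : y * g * y⁻¹ ∈ ee K s := by
  induction hg using Subgroup.closure_induction with
  | mem x hx =>
    obtain ⟨z, hz, rfl⟩ := hx
    have : y * (z * s * z⁻¹) * y⁻¹ = (y * z) * s * (y * z)⁻¹ := by group
    rw [this]
    exact conj_mem_ee s (K.mul_mem hy hz)
  | one => simp [(ee K s).one_mem]
  | mul a b _ _ ha hb =>
    have : y * (a * b) * y⁻¹ = (y * a * y⁻¹) * (y * b * y⁻¹) := by group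
    rw [this]
    exact (ee K s).mul_mem ha hb
  | inv a _ ha =>
    have : y * a⁻¹ * y⁻¹ = (y * a * y⁻¹)⁻¹ := by group
    rw [this]
    exact (ee K s).inv_mem ha

omit hinj hK hcen [K.Normal] [Finite E] in
theorem comm_le_ee (s : Γ) : ⁅K, Subgroup.zpowers s⁆ ≤ ee K s := by
  rw [Subgroup.commutator_le]
  intro y hy a ha
  have h1 : a ∈ ee K s := (Subgroup.zpowers_le.mpr (mem_ee K s)) ha
  rw [commutatorElement_def]
  exact (ee K s).mul_mem (conj_ee hy s h1) ((ee K s).inv_mem h1)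

omit hinj hK hcen [K.Normal] [Finite E] in
theorem comm_sup_eq (s : Γ) : ⁅K, Subgroup.zpowers s⁆ ⊔ Subgroup.zpowers s = ee K s := by
  apply le_antisymm
  · exact sup_le (comm_le_ee s) (Subgroup.zpowers_le.mpr (mem_ee K s))
  · rw [ee, Subgroup.closure_le]
    rintro g ⟨y, hy, rfl⟩
    have h1 : ⁅y, s⁆ ∈ ⁅K, Subgroup.zpowers s⁆ :=
      Subgroup.commutator_mem_commutator hy (Subgroup.mem_zpowers s)
    have h2 : y * s * y⁻¹ = ⁅y, s⁆ * s := by
      rw [commutatorElement_def]
      group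
    rw [h2]
    exact Subgroup.mul_mem _ ((le_sup_left : ⁅K, Subgroup.zpowers s⁆ ≤ _) h1)
      ((le_sup_right : Subgroup.zpowers s ≤ _) (Subgroup.mem_zpowers s))

omit hK hcen [K.Normal] in
theorem isBO_zpowers (hinj : Function.Injective ρ) {s : Γ} {u : E} {f : Module.Dual (ZMod p) E} (hs : Tv ρ s u f) :
    IsBO (p := p) ρ (Subgroup.zpowers s) ∧ Nat.card (Subgroup.zpowers s) = p := by
  have hsp : s ^ p = 1 := by
    apply hinj
    rw [map_one]
    exact hs.pow_p
  have hord : orderOf s = p := orderOf_eq_prime hsp hs.ne_one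
  have hc : Nat.card (Subgroup.zpowers s) = p := by rw [Nat.card_zpowers, hord]
  have hcom : Nat.card (comS ρ (Subgroup.zpowers s)) = p := by
    have h1 : comS ρ (Subgroup.zpowers s) = Submodule.span (ZMod p) {u} := by
      rw [comS_zpowers]
      apply le_antisymm
      · rintro _ ⟨v, rfl⟩
        have : (ρ s - 1) v = f v • u := by
          simp [hs.app]
        rw [this]
        exact Submodule.smul_mem _ _ (Submodule.mem_span_singleton_self u)
      · rw [Submodule.span_singleton_le_iff_mem]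
        obtain ⟨v, hv⟩ : ∃ v, f v ≠ 0 := by
          by_contra hcon
          push Not at hcon
          exact hs.f0 (LinearMap.ext hcon)
        refine ⟨(f v)⁻¹ • v, ?_⟩
        simp [hs.app, hv, smul_smul]
    rw [h1, card_eq_pow, finrank_span_singleton hs.u0, pow_one]
  have h2 := card_comS_mul_card_fixS ρ s
  rw [hcom] at h2
  have hff : fF ρ (Subgroup.zpowers s) = Nat.card E := by
    unfold fF
    rw [hc, h2]
  refine ⟨⟨?_, ?_, ?_⟩, hc⟩
  · intro B hB
    have hd := Subgroup.card_dvd_of_le hB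
    rw [hc] at hd
    rcases (Nat.dvd_prime hp.out).mp hd with h5 | h5
    · have : B = ⊥ := Subgroup.card_eq_one.mp h5
      rw [this, fF_bot, hff]
    · have : B = Subgroup.zpowers s := Subgroup.eq_of_le_of_card_ge hB (by rw [h5, hc])
      rw [this]
  · intro a ha b hb
    obtain ⟨k, rfl⟩ := Subgroup.mem_zpowers_iff.mp ha
    obtain ⟨l, rfl⟩ := Subgroup.mem_zpowers_iff.mp hb
    rw [← zpow_add, ← zpow_add, add_comm]
  · intro a ha
    obtain ⟨k, rfl⟩ := Subgroup.mem_zpowers_iff.mp ha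
    rw [← zpow_natCast, zpow_comm, zpow_natCast, hsp, one_zpow]

/-- Generation by transvections. -/
theorem gen_tv (h : FFH (p := p) ρ)
    (hgen : (⨆ A : {A : Subgroup Γ // IsBO (p := p) ρ A}, (A : Subgroup Γ)) = ⊤) :
    Subgroup.closure {s | IsTv ρ s} = ⊤ := by
  rw [eq_top_iff, ← hgen]
  refine iSup_le ?_
  rintro ⟨A, hA⟩
  obtain ⟨k, D, hD, _, hsup⟩ := decomp h hA
  show A ≤ _
  rw [← hsup]
  refine iSup_le ?_
  intro i
  obtain ⟨h1, h2, h3⟩ := hD i
  have hDo : IsBO (p := p) ρ (D i) := hA.mono ρ h1 (by rw [h3, fF_eq_card h hA])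
  obtain ⟨s, hs, hDs⟩ := tv_of_BO h hDo h2
  rw [hDs, Subgroup.zpowers_le]
  exact Subgroup.subset_closure hs

end Main

section Q8

/-- A subgroup of order `8` of `SL(2, 3)` is not abelian. -/
theorem sl2_three_noncomm (C : Subgroup (Matrix.SpecialLinearGroup (Fin 2) (ZMod 3))) (hC : Nat.card C = 8) :
    ∃ x ∈ C, ∃ y ∈ C, x * y ≠ y * x := by
  let X : Finset (Matrix.SpecialLinearGroup (Fin 2) (ZMod 3)) := Finset.univ.filter (fun g => g ^ 8 = 1)
  have hX : X.card = 8 := by decide +kernel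
  have hsub : (C : Set (Matrix.SpecialLinearGroup (Fin 2) (ZMod 3))) ⊆ (X : Set _) := by
    intro g hg
    have : (⟨g, hg⟩ : C) ^ 8 = 1 := by
      rw [← hC]
      exact pow_card_eq_one'
    rw [Finset.mem_coe, Finset.mem_filter]
    exact ⟨Finset.mem_univ _, congrArg Subtype.val this⟩
  have heq : (C : Set (Matrix.SpecialLinearGroup (Fin 2) (ZMod 3))) = (X : Set _) := by
    apply Set.eq_of_subset_of_ncard_le hsub
    rw [Set.ncard_coe_finset, hX, ← hC, ← Nat.card_coe_set_eq]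
    rfl
  let i : Matrix.SpecialLinearGroup (Fin 2) (ZMod 3) := ⟨!![0, 1; 2, 0], by decide +kernel⟩
  let j : Matrix.SpecialLinearGroup (Fin 2) (ZMod 3) := ⟨!![1, 1; 1, 2], by decide +kernel⟩
  have hi : i ∈ X := by
    rw [Finset.mem_filter]
    exact ⟨Finset.mem_univ _, by decide +kernel⟩
  have hj : j ∈ X := by
    rw [Finset.mem_filter]
    exact ⟨Finset.mem_univ _, by decide +kernel⟩
  have hij : i * j ≠ j * i := by decide +kernel
  rw [← Finset.mem_coe, ← heq] at hi hj
  exact ⟨i, hi, j, hj, hij⟩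

end Q8

section Core

variable {p : ℕ} [hp : Fact p.Prime] {Γ : Type*} [Group Γ] {E : Type*} [AddCommGroup E]
  [Module (ZMod p) E] {ρ : Γ →* Module.End (ZMod p) E} [Finite Γ] [Finite E]
  {K : Subgroup Γ} [K.Normal]

/-- The structure of the core. -/
theorem core_struct (hinj : Function.Injective ρ) (hK : (Nat.card K).Coprime p)
    (hcen : Subgroup.centralizer (K : Set Γ) ≤ K) {s : Γ} (hs : IsTv ρ s) :
    (p = 2 ∧ IsPGroup 3 ↥(⁅K, Subgroup.zpowers s⁆)) ∨
      (p = 3 ∧ IsPGroup 2 ↥(⁅K, Subgroup.zpowers s⁆) ∧ ¬ IsMulCommutative ↥(⁅K, Subgroup.zpowers s⁆)) := by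
  obtain ⟨y, hy, hne⟩ := exists_move hinj hK hcen hs
  have hF := fac_ee hinj hK hcen hs
  obtain ⟨u, f, hT⟩ := hs
  have hm := conj_mod hinj hK hy (s := s)
  have h := pair_of_ne hinj hK hT (hT.conj y) hm (Ne.symm hne)
  have hee := ee_eq hinj hK hT hy hne
  have hQ := h.card_Q hinj hK hm
  rw [← hee] at hQ
  set C := ⁅K, Subgroup.zpowers s⁆ with hC
  have hCK : C ≤ K := by
    rw [hC]
    exact (Subgroup.commutator_le_left K _)
  have hCQ : C ≤ ee K s ⊓ K := le_inf (comm_le_ee s) hCK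
  have hdvd := Subgroup.card_dvd_of_le hCQ
  rw [hQ] at hdvd
  have hnorm : Subgroup.zpowers s ≤ Subgroup.normalizer (C : Set Γ) := by
    intro a ha
    apply Cfsg.Agent.Lib.Replacement.mem_normalizer_of_forall
    intro g hg
    have h1 : C ≤ C.comap (MulAut.conj a).toMonoidHom := by
      rw [hC, Subgroup.commutator_le]
      intro y hy b hb
      have h2 : (MulAut.conj a).toMonoidHom ⁅y, b⁆ = ⁅a * y * a⁻¹, b⁆ := by
        have h3 : a * b = b * a := by
          obtain ⟨k, rfl⟩ := Subgroup.mem_zpowers_iff.mp ha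
          obtain ⟨l, rfl⟩ := Subgroup.mem_zpowers_iff.mp hb
          rw [← zpow_add, ← zpow_add, add_comm]
        have h5 : a⁻¹ * b * a = b := by
          rw [mul_assoc, ← h3]
          group
        have h6 : a⁻¹ * b⁻¹ = b⁻¹ * a⁻¹ := by
          rw [← mul_inv_rev, ← mul_inv_rev, h3]
        show a * ⁅y, b⁆ * a⁻¹ = _
        have h7 : ⁅a * y * a⁻¹, b⁆ = a * y * (a⁻¹ * b * a) * y⁻¹ * (a⁻¹ * b⁻¹) := by
          rw [commutatorElement_def]
          group
        rw [h7, h5, h6, commutatorElement_def]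
        group
      rw [Subgroup.mem_comap, h2]
      exact Subgroup.commutator_mem_commutator ((inferInstance : K.Normal).conj_mem y hy a) hb
    exact h1 hg
  have hcard := Cfsg.Agent.Lib.Replacement.card_sup_mul_card_inf (Subgroup.zpowers s) C hnorm
  rw [sup_comm, comm_sup_eq, (isBO_zpowers hinj hT).2] at hcard
  obtain ⟨e⟩ := hF.iso
  have hcL : Nat.card (ee K s) = p * (p ^ 2 - 1) := by
    rw [Nat.card_congr e.toEquiv, card_SL2 hF.two_three]
  rw [hcL] at hcard
  have hpos : 0 < Nat.card ↥(Subgroup.zpowers s ⊓ C) := Nat.card_pos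
  have hcC : p ^ 2 - 1 ≤ Nat.card C := by
    have hp0 : 0 < p := hp.out.pos
    apply Nat.le_of_mul_le_mul_left _ hp0
    rw [← hcard]
    exact Nat.le_mul_of_pos_right _ hpos
  have hcC2 : Nat.card C = p ^ 2 - 1 := by
    apply le_antisymm _ hcC
    apply Nat.le_of_dvd _ hdvd
    have := hp.out.two_le
    have : 4 ≤ p ^ 2 := by nlinarith
    omega
  rcases hF.two_three with rfl | rfl
  · left
    refine ⟨rfl, ?_⟩
    rw [IsPGroup.iff_card]
    exact ⟨1, by simpa using hcC2⟩
  · right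
    refine ⟨rfl, ?_, ?_⟩
    · rw [IsPGroup.iff_card]
      exact ⟨3, by simpa using hcC2⟩
    · intro hcomm
      have hc8 : Nat.card C = 8 := by simpa using hcC2
      let C₂ : Subgroup (SL2 (ZMod 3)) := (C.subgroupOf (ee K s)).map e.toMonoidHom
      have hC₂ : Nat.card C₂ = 8 := by
        rw [Subgroup.card_map_of_injective (MulEquiv.injective e),
          Cfsg.Agent.Lib.FFBridge.card_subgroupOf_of_le (comm_le_ee s), hc8]
      obtain ⟨x, hx, y, hy', hxy⟩ := sl2_three_noncomm C₂ hC₂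
      obtain ⟨a, ha, rfl⟩ := hx
      obtain ⟨b, hb, rfl⟩ := hy'
      apply hxy
      have hab : a * b = b * a := by
        have := hcomm.is_comm.comm (⟨a.1, ha⟩ : C) ⟨b.1, hb⟩
        apply Subtype.ext
        exact congrArg (fun z : C => (z : Γ)) this
      show e a * e b = e b * e a
      rw [← map_mul, ← map_mul, hab]

end Core

end Cfsg.Agent.Lib.FFStruct
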