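import Mathlib
import Cfsg.Agent.Lib.FFStruct

/-!
# The structure theorem in terms of subgroups of `G`.
-/

set_option autoImplicit false
set_option linter.unusedSectionVars false
set_option linter.style.haveILetI false

open scoped commutatorElement
open Cfsg

namespace Cfsg.Agent.Lib.FFFinal

open Cfsg.Agent.Lib.FFMod Cfsg.Agent.Lib.FFTv Cfsg.Agent.Lib.QuadPair Cfsg.Agent.Lib.FFPair
  Cfsg.Agent.Lib.FFDich Cfsg.Agent.Lib.FFStruct Cfsg.Agent.Lib.FFBridge Cfsg.Agent.Lib.PCore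

universe u

section

variable {G : Type u} [Group G] [Finite G] {p : ℕ} [hp : Fact p.Prime] {V H : Subgroup G}
  {E : Type u} [AddCommGroup E] [Module (ZMod p) E] [Finite E]
  {ρ : H →* Module.End (ZMod p) E} {ι : Multiplicative E →* G}

theorem toS_cenP (hm : Model V H ρ ι) (W : Submodule (ZMod p) E) :
    H ⊓ Subgroup.centralizer ((toS ι W : Subgroup G) : Set G) = (cenP ρ W).map H.subtype := by
  apply le_antisymm
  · intro g hg0
    obtain ⟨hg, hg2⟩ := Subgroup.mem_inf.mp hg0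
    refine ⟨⟨g, hg⟩, ?_, rfl⟩
    intro w hw
    apply hm.injE
    rw [hm.act]
    rw [Subgroup.mem_centralizer_iff] at hg2
    have := hg2 _ (toS_mem hw)
    show g * ι (Multiplicative.ofAdd w) * g⁻¹ = _
    rw [← this]
    group
  · rintro _ ⟨g, hg, rfl⟩
    refine Subgroup.mem_inf.mpr ⟨g.2, ?_⟩
    rw [Subgroup.mem_centralizer_iff]
    intro x hx
    obtain ⟨w, hw, rfl⟩ := mem_toS.mp hx
    have h1 := hm.act g w
    rw [hg w hw] at h1
    show ι (Multiplicative.ofAdd w) * (g : G) = g * ι (Multiplicative.ofAdd w)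
    conv_lhs => rw [h1]
    group

theorem toS_iSupIndep (hm : Model V H ρ ι) {κ : Type*} {P : κ → Submodule (ZMod p) E} (h : iSupIndep P) :
    iSupIndep (fun i => toS ι (P i)) := by
  intro i
  have h1 := h i
  rw [disjoint_iff] at h1 ⊢
  rw [eq_bot_iff, ← hm.toS_bot, ← h1, hm.toS_inf]
  apply inf_le_inf_left
  refine iSup₂_le ?_
  intro j hj
  exact toS_mono (le_iSup₂_of_le j hj le_rfl)

theorem toS_iSup (hm : Model V H ρ ι) {κ : Type*} (P : κ → Submodule (ZMod p) E) :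
    toS ι (⨆ i, P i) = ⨆ i, toS ι (P i) := by
  apply le_antisymm
  · intro g hg
    obtain ⟨x, hx, rfl⟩ := mem_toS.mp hg
    induction hx using Submodule.iSup_induction' with
    | mem i y hy => exact (le_iSup (fun i => toS ι (P i)) i) (toS_mem hy)
    | zero =>
      rw [hm.zero]
      exact Subgroup.one_mem _
    | add y z _ _ hy hz =>
      rw [hm.add]
      exact Subgroup.mul_mem _ (hy (toS_mem (by assumption))) (hz (toS_mem (by assumption)))
  · exact iSup_le (fun i => toS_mono (le_iSup P i))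

variable (hm : Model V H ρ ι) (hf : H ⊓ Subgroup.centralizer (V : Set G) = ⊥)
  (hS1 : Subgroup.centralizer (pPrimeCore p ↥H : Set ↥H) ≤ pPrimeCore p ↥H)

include hm hf hS1

/-- From minimal offenders in `G` to transvections. -/
theorem min_data {A : Subgroup G} (hAH : A ≤ H) (hA : IsBestOffenderOn p V A) (hAV : ⁅V, A⁆ ≠ ⊥)
    (hmin : ∀ B : Subgroup G, B ≤ A → IsBestOffenderOn p V B → ⁅V, B⁆ ≠ ⊥ → B = A) :
    ∃ s : H, IsTv ρ s ∧ A = (Subgroup.zpowers s).map H.subtype := by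
  have hff := hm.ffh hf hS1
  have hAo := hm.isBO hf hAH hA
  set A' := A.subgroupOf H with hA'
  have hmap : A'.map H.subtype = A := Subgroup.map_subgroupOf_eq_of_le hAH
  have hne : A' ≠ ⊥ := by
    intro h0
    apply hAV
    rw [← hmap, h0, Subgroup.map_bot]
    simp
  have hmin' : ∀ B ≤ A', IsBO (p := p) ρ B → B ≠ ⊥ → B = A' := by
    intro B hBA hB hB0
    have h1 : B.map H.subtype ≤ A := by
      rw [← hmap]
      exact Subgroup.map_mono hBA
    have h2 : ⁅V, B.map H.subtype⁆ ≠ ⊥ := by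
      intro h3
      rw [hm.comm_eq_bot_iff hf (Subgroup.map_subtype_le B)] at h3
      apply hB0
      exact (Subgroup.map_eq_bot_iff_of_injective B H.subtype_injective).mp h3
    have h3 := hmin _ h1 (hm.bestOff hB) h2
    rw [← hmap] at h3
    exact Subgroup.map_injective H.subtype_injective h3
  obtain ⟨h1, _⟩ := min_props hff hAo hne hmin'
  obtain ⟨s, hs, hsA⟩ := tv_of_BO hff hAo h1
  refine ⟨s, hs, ?_⟩
  rw [← hsA, hmap]

/-- Transvections give minimal offenders. -/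
theorem min_of_tv {s : H} (hs : IsTv ρ s) :
    (Subgroup.zpowers s).map H.subtype ≤ H ∧ IsBestOffenderOn p V ((Subgroup.zpowers s).map H.subtype) ∧
      ⁅V, (Subgroup.zpowers s).map H.subtype⁆ ≠ ⊥ ∧
      ∀ C : Subgroup G, C ≤ (Subgroup.zpowers s).map H.subtype → IsBestOffenderOn p V C → ⁅V, C⁆ ≠ ⊥ →
        C = (Subgroup.zpowers s).map H.subtype := by
  have hff := hm.ffh hf hS1
  obtain ⟨u, f, hT⟩ := hs
  obtain ⟨hDo, hc⟩ := isBO_zpowers hff.inj hT
  have hcard : Nat.card ((Subgroup.zpowers s).map H.subtype) = p := by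
    rw [Subgroup.card_map_of_injective H.subtype_injective, hc]
  refine ⟨Subgroup.map_subtype_le _, hm.bestOff hDo, ?_, ?_⟩
  · intro h4
    rw [hm.comm_eq_bot_iff hf (Subgroup.map_subtype_le _)] at h4
    rw [h4, Subgroup.card_bot] at hcard
    exact hp.out.one_lt.ne hcard
  · intro C hC _ hC2
    have hC0 : C ≠ ⊥ := by
      rintro rfl
      simp at hC2
    have hd := Subgroup.card_dvd_of_le hC
    rw [hcard] at hd
    rcases (Nat.dvd_prime hp.out).mp hd with h5 | h5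
    · exact absurd (Subgroup.card_eq_one.mp h5) hC0
    · exact Subgroup.eq_of_le_of_card_ge hC (by rw [h5, hcard])

omit hf hS1 in
/-- The group in `G` attached to a transvection. -/
theorem map_ee (s : H) :
    ⁅(pPrimeCore p ↥H).map H.subtype, (Subgroup.zpowers s).map H.subtype⁆ ⊔ (Subgroup.zpowers s).map H.subtype =
      (ee (pPrimeCore p ↥H) s).map H.subtype := by
  rw [← comm_sup_eq, Subgroup.map_sup, Subgroup.map_commutator]

omit hf hS1 in
theorem mem_of_map {D : Subgroup H} {g : H} (h : (g : G) ∈ D.map H.subtype) : g ∈ D := by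
  obtain ⟨d, hd, hdg⟩ := h
  have : d = g := Subtype.ext hdg
  rwa [← this]

/-- Generation by transvections, from generation by best offenders in `G`. -/
theorem gen_of_hS3 (hS3 : H = ⨆ A : {A : Subgroup G // A ≤ H ∧ IsBestOffenderOn p V A}, (A : Subgroup G)) :
    Subgroup.closure {s | IsTv ρ s} = ⊤ := by
  have hff := hm.ffh hf hS1
  apply gen_tv hff
  rw [eq_top_iff]
  rintro g -
  have h1 : (g : G) ∈ (⨆ A : {A : Subgroup H // IsBO (p := p) ρ A}, (A : Subgroup H)).map H.subtype := by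
    have h2 : H ≤ (⨆ A : {A : Subgroup H // IsBO (p := p) ρ A}, (A : Subgroup H)).map H.subtype := by
      conv_lhs => rw [hS3]
      refine iSup_le ?_
      rintro ⟨A, hAH, hA⟩
      show A ≤ _
      conv_lhs => rw [← Subgroup.map_subgroupOf_eq_of_le hAH]
      apply Subgroup.map_mono
      exact le_iSup (fun A : {A : Subgroup H // IsBO (p := p) ρ A} => (A : Subgroup H)) ⟨_, hm.isBO hf hAH hA⟩
    exact h2 g.2
  exact mem_of_map hm h1

end

section Statements

variable {G : Type u} [Group G] [Finite G] {p : ℕ} [hp : Fact p.Prime]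

theorem s0613 (V H : Subgroup G) (hV : IsElementaryAbelian p V)
    (hHV : H ≤ Subgroup.normalizer (V : Set G)) (hf : H ⊓ Subgroup.centralizer (V : Set G) = ⊥)
    (hS1 : Subgroup.centralizer (pPrimeCore p ↥H : Set ↥H) ≤ pPrimeCore p ↥H) (A : Subgroup G)
    (hAH : A ≤ H) (hA : IsBestOffenderOn p V A) (hAV : ⁅V, A⁆ ≠ ⊥)
    (hmin : ∀ B : Subgroup G, B ≤ A → IsBestOffenderOn p V B → ⁅V, B⁆ ≠ ⊥ → B = A) (x : G)
    (hx : x ∈ ((pPrimeCore p ↥H).map H.subtype)) (hxA : x ∉ Subgroup.centralizer (A : Set G)) :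
    (p = 2 ∨ p = 3) ∧ Nat.card ↥(⁅V, A ⊔ A.map (MulAut.conj x).toMonoidHom⁆) = p ^ 2 ∧
      (A ⊔ A.map (MulAut.conj x).toMonoidHom) ⊓
        Subgroup.centralizer ((⁅V, A ⊔ A.map (MulAut.conj x).toMonoidHom⁆ : Subgroup G) : Set G) = ⊥ ∧
      Nonempty (↥(A ⊔ A.map (MulAut.conj x).toMonoidHom) ≃* Matrix.SpecialLinearGroup (Fin 2) (ZMod p)) := by
  obtain ⟨E, _, _, _, ρ, ι, hm⟩ := exists_model hV hHV
  have hff := hm.ffh hf hS1
  obtain ⟨s, hs, rfl⟩ := min_data hm hf hS1 hAH hA hAV hmin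
  obtain ⟨y, hy, rfl⟩ := hx
  have hne : y * s * y⁻¹ ≠ s := by
    intro h0
    apply hxA
    rw [Subgroup.mem_centralizer_iff]
    rintro _ ⟨a, ha, rfl⟩
    obtain ⟨k, rfl⟩ := Subgroup.mem_zpowers_iff.mp ha
    have h1 : y * s = s * y := by
      rw [mul_inv_eq_iff_eq_mul] at h0
      exact h0
    have h2 : Commute y (s ^ k) := (show Commute y s from h1).zpow_right k
    have h3 := congrArg H.subtype h2.eq
    simp only [map_mul] at h3
    exact h3.symm
  have hmm : s⁻¹ * (y * s * y⁻¹) ∈ pPrimeCore p ↥H := conj_mod hff.inj (card_pPrimeCore_coprime p) hy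
  obtain ⟨u, f, hT⟩ := hs
  have hP := pair_of_ne hff.inj (card_pPrimeCore_coprime p) hT (hT.conj y) hmm (Ne.symm hne)
  have hFac := fac_pair hP hff.inj (card_pPrimeCore_coprime p) hmm
  have hD : (Subgroup.zpowers s).map H.subtype ⊔
      ((Subgroup.zpowers s).map H.subtype).map (MulAut.conj (H.subtype y)).toMonoidHom =
      (pL s (y * s * y⁻¹)).map H.subtype := by
    rw [pL, MonoidHom.map_closure, Set.image_pair, Subgroup.zpowers_eq_closure, MonoidHom.map_closure,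
      MonoidHom.map_closure, Set.image_singleton, Set.image_singleton, ← Subgroup.closure_union,
      Set.singleton_union]
    congr 3
  rw [hD]
  set D := pL s (y * s * y⁻¹) with hDdef
  refine ⟨hFac.two_three, ?_, ?_, ?_⟩
  · rw [← hm.toS_comS, hm.card_toS, hFac.card]
  · rw [← hm.toS_comS]
    have h1 : D.map H.subtype ⊓ Subgroup.centralizer ((toS ι (comS ρ D) : Subgroup G) : Set G) =
        D.map H.subtype ⊓ (H ⊓ Subgroup.centralizer ((toS ι (comS ρ D) : Subgroup G) : Set G)) := by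
      rw [← inf_assoc, inf_eq_left.mpr (Subgroup.map_subtype_le D)]
    rw [h1, toS_cenP hm, ← Subgroup.map_inf _ _ _ H.subtype_injective, hFac.inf_cenP, Subgroup.map_bot]
  · obtain ⟨e⟩ := hFac.iso
    exact ⟨(Subgroup.equivMapOfInjective D H.subtype H.subtype_injective).symm.trans e⟩

theorem s0614 (V H : Subgroup G) (hV : IsElementaryAbelian p V)
    (hHV : H ≤ Subgroup.normalizer (V : Set G)) (hf : H ⊓ Subgroup.centralizer (V : Set G) = ⊥)
    (hS1 : Subgroup.centralizer (pPrimeCore p ↥H : Set ↥H) ≤ pPrimeCore p ↥H) (A : Subgroup G)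
    (hAH : A ≤ H) (hA : IsBestOffenderOn p V A) (hAV : ⁅V, A⁆ ≠ ⊥)
    (hmin : ∀ B : Subgroup G, B ≤ A → IsBestOffenderOn p V B → ⁅V, B⁆ ≠ ⊥ → B = A) :
    (p = 2 ∧ IsPGroup 3 ↥(⁅((pPrimeCore p ↥H).map H.subtype), A⁆)) ∨
      (p = 3 ∧ IsPGroup 2 ↥(⁅((pPrimeCore p ↥H).map H.subtype), A⁆) ∧
        ¬ IsMulCommutative ↥(⁅((pPrimeCore p ↥H).map H.subtype), A⁆)) := by
  obtain ⟨E, _, _, _, ρ, ι, hm⟩ := exists_model hV hHV
  have hff := hm.ffh hf hS1
  obtain ⟨s, hs, rfl⟩ := min_data hm hf hS1 hAH hA hAV hmin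
  rw [← Subgroup.map_commutator]
  have hcore := core_struct hff.inj (card_pPrimeCore_coprime p) hff.cen hs
  set C := ⁅pPrimeCore p ↥H, Subgroup.zpowers s⁆ with hC
  let e := Subgroup.equivMapOfInjective C H.subtype H.subtype_injective
  rcases hcore with ⟨h1, h2⟩ | ⟨h1, h2, h3⟩
  · exact Or.inl ⟨h1, h2.of_equiv e⟩
  · refine Or.inr ⟨h1, h2.of_equiv e, ?_⟩
    intro h4
    apply h3
    refine ⟨⟨fun a b => ?_⟩⟩
    apply e.injective
    rw [map_mul, map_mul]
    exact h4.is_comm.comm _ _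

/-- The conclusion for one factor. -/
theorem s0616 (V H : Subgroup G) (hV : IsElementaryAbelian p V)
    (hHV : H ≤ Subgroup.normalizer (V : Set G)) (hf : H ⊓ Subgroup.centralizer (V : Set G) = ⊥)
    (hS1 : Subgroup.centralizer (pPrimeCore p ↥H : Set ↥H) ≤ pPrimeCore p ↥H)
    (hS3 : H = ⨆ A : {A : Subgroup G // A ≤ H ∧ IsBestOffenderOn p V A}, (A : Subgroup G))
    (A : Subgroup G) (hAH : A ≤ H) (hA : IsBestOffenderOn p V A) (hAV : ⁅V, A⁆ ≠ ⊥)
    (hmin : ∀ B : Subgroup G, B ≤ A → IsBestOffenderOn p V B → ⁅V, B⁆ ≠ ⊥ → B = A) :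
    (p = 2 ∨ p = 3) ∧
    Nonempty (↥(⁅((pPrimeCore p ↥H).map H.subtype), A⁆ ⊔ A) ≃* Matrix.SpecialLinearGroup (Fin 2) (ZMod p)) ∧
    Nat.card ↥(⁅V, ⁅((pPrimeCore p ↥H).map H.subtype), A⁆ ⊔ A⁆) = p ^ 2 ∧
    ⁅V, ⁅((pPrimeCore p ↥H).map H.subtype), A⁆ ⊔ A⁆ ⊓
      (V ⊓ Subgroup.centralizer ((⁅((pPrimeCore p ↥H).map H.subtype), A⁆ ⊔ A : Subgroup G) : Set G)) = ⊥ ∧
    ⁅V, ⁅((pPrimeCore p ↥H).map H.subtype), A⁆ ⊔ A⁆ ⊔
      (V ⊓ Subgroup.centralizer ((⁅((pPrimeCore p ↥H).map H.subtype), A⁆ ⊔ A : Subgroup G) : Set G)) = V ∧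
    ⁅⁅((pPrimeCore p ↥H).map H.subtype), A⁆ ⊔ A,
      H ⊓ Subgroup.centralizer ((⁅V, ⁅((pPrimeCore p ↥H).map H.subtype), A⁆ ⊔ A⁆ : Subgroup G) : Set G)⁆ = ⊥ ∧
    (⁅((pPrimeCore p ↥H).map H.subtype), A⁆ ⊔ A) ⊓
      (H ⊓ Subgroup.centralizer ((⁅V, ⁅((pPrimeCore p ↥H).map H.subtype), A⁆ ⊔ A⁆ : Subgroup G) : Set G)) = ⊥ ∧
    (⁅((pPrimeCore p ↥H).map H.subtype), A⁆ ⊔ A) ⊔
      (H ⊓ Subgroup.centralizer ((⁅V, ⁅((pPrimeCore p ↥H).map H.subtype), A⁆ ⊔ A⁆ : Subgroup G) : Set G)) = H ∧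
    ⁅V, H ⊓ Subgroup.centralizer ((⁅V, ⁅((pPrimeCore p ↥H).map H.subtype), A⁆ ⊔ A⁆ : Subgroup G) : Set G)⁆ ≤
      V ⊓ Subgroup.centralizer ((⁅((pPrimeCore p ↥H).map H.subtype), A⁆ ⊔ A : Subgroup G) : Set G) := by
  obtain ⟨E, _, _, _, ρ, ι, hm⟩ := exists_model hV hHV
  have hff := hm.ffh hf hS1
  have hgen := gen_of_hS3 hm hf hS1 hS3
  have hinj := hff.inj
  have hK := card_pPrimeCore_coprime (G := H) p
  have hcen := hff.cen
  obtain ⟨s, hs, rfl⟩ := min_data hm hf hS1 hAH hA hAV hmin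
  rw [map_ee hm s]
  set L := ee (pPrimeCore p ↥H) s with hL
  have hFac : Fac ρ L := fac_ee hinj hK hcen hs
  rw [← hm.toS_comS, ← hm.toS_fixS, toS_cenP hm, ← hm.toS_comS, ← Subgroup.map_commutator]
  refine ⟨hFac.two_three, ?_, ?_, ?_, ?_, ?_, ?_, ?_, ?_⟩
  · obtain ⟨e⟩ := hFac.iso
    exact ⟨(Subgroup.equivMapOfInjective L H.subtype H.subtype_injective).symm.trans e⟩
  · rw [hm.card_toS, hFac.card]
  · rw [← hm.toS_inf, hFac.inf, hm.toS_bot]
  · rw [← hm.toS_sup, hFac.sup, hm.toS_top]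
  · rw [eq_bot_iff, Subgroup.map_le_iff_le_comap, Subgroup.commutator_le]
    intro g hg c hc
    have := comm_cenP hinj hK hcen hgen hs hg hc
    rw [Subgroup.mem_comap, Subgroup.mem_bot, map_eq_one_iff _ H.subtype_injective, commutatorElement_eq_one_iff_mul_comm]
    exact this
  · rw [← Subgroup.map_inf _ _ _ H.subtype_injective, hFac.inf_cenP, Subgroup.map_bot]
  · rw [← Subgroup.map_sup, sup_cenP hinj hK hcen hgen hs, ← MonoidHom.range_eq_map, Subgroup.range_subtype]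
  · exact toS_mono (comS_cenP hinj hK hcen hgen hs)

/-- The minimal offender data. -/
abbrev MinE (p : ℕ) (V H E₀ : Subgroup G) : Prop :=
  ∃ A : Subgroup G, A ≤ H ∧ IsBestOffenderOn p V A ∧ ⁅V, A⁆ ≠ ⊥ ∧
    (∀ B : Subgroup G, B ≤ A → IsBestOffenderOn p V B → ⁅V, B⁆ ≠ ⊥ → B = A) ∧
    E₀ = ⁅((pPrimeCore p ↥H).map H.subtype), A⁆ ⊔ A

theorem s0617 (V H : Subgroup G) (hV : IsElementaryAbelian p V)
    (hHV : H ≤ Subgroup.normalizer (V : Set G)) (hf : H ⊓ Subgroup.centralizer (V : Set G) = ⊥)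
    (hS1 : Subgroup.centralizer (pPrimeCore p ↥H : Set ↥H) ≤ pPrimeCore p ↥H)
    (hS3 : H = ⨆ A : {A : Subgroup G // A ≤ H ∧ IsBestOffenderOn p V A}, (A : Subgroup G)) (hH1 : H ≠ ⊥) :
    (p = 2 ∨ p = 3) ∧
    (∀ E : {E : Subgroup G // MinE p V H E},
      H ≤ Subgroup.normalizer ((E : Subgroup G) : Set G) ∧
      Nonempty (↥(E : Subgroup G) ≃* Matrix.SpecialLinearGroup (Fin 2) (ZMod p)) ∧
      Nat.card ↥(⁅V, (E : Subgroup G)⁆) = p ^ 2) ∧
    iSupIndep (fun E : {E : Subgroup G // MinE p V H E} => (E : Subgroup G)) ∧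
    (⨆ E : {E : Subgroup G // MinE p V H E}, (E : Subgroup G)) = H ∧
    iSupIndep (fun o : Option {E : Subgroup G // MinE p V H E} =>
      o.elim (V ⊓ Subgroup.centralizer (H : Set G)) (fun E => ⁅V, (E : Subgroup G)⁆)) ∧
    (V ⊓ Subgroup.centralizer (H : Set G)) ⊔
      (⨆ E : {E : Subgroup G // MinE p V H E}, ⁅V, (E : Subgroup G)⁆) = V := by
  obtain ⟨E, _, _, _, ρ, ι, hm⟩ := exists_model hV hHV
  have hff := hm.ffh hf hS1
  have hgen := gen_of_hS3 hm hf hS1 hS3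
  have hinj := hff.inj
  have hK := card_pPrimeCore_coprime (G := H) p
  have hcen := hff.cen
  set K := pPrimeCore p ↥H with hKdef
  -- the data of a factor
  have hdata : ∀ E₀ : {E : Subgroup G // MinE p V H E},
      ∃ s : H, IsTv ρ s ∧ (E₀ : Subgroup G) = (ee K s).map H.subtype := by
    rintro ⟨E₀, A, hAH, hA, hAV, hmin, rfl⟩
    obtain ⟨s, hs, rfl⟩ := min_data hm hf hS1 hAH hA hAV hmin
    exact ⟨s, hs, map_ee hm s⟩
  let F : {E : Subgroup G // MinE p V H E} → Subgroup H := fun E₀ => (E₀ : Subgroup G).subgroupOf H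
  have hFmap : ∀ E₀, (F E₀).map H.subtype = (E₀ : Subgroup G) := by
    intro E₀
    obtain ⟨s, _, hs⟩ := hdata E₀
    apply Subgroup.map_subgroupOf_eq_of_le
    rw [hs]
    exact Subgroup.map_subtype_le _
  have hFinj : Function.Injective F := by
    intro a b hab
    apply Subtype.ext
    rw [← hFmap a, ← hFmap b, hab]
  have hF1 : ∀ E₀, ∃ s, IsTv ρ s ∧ F E₀ = ee K s := by
    intro E₀
    obtain ⟨s, h1, hs⟩ := hdata E₀
    refine ⟨s, h1, ?_⟩
    apply Subgroup.map_injective H.subtype_injective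
    rw [hFmap, hs]
  have hF2 : ∀ s, IsTv ρ s → ∃ E₀, F E₀ = ee K s := by
    intro s hs
    obtain ⟨h1, h2, h3, h4⟩ := min_of_tv hm hf hS1 hs
    refine ⟨⟨(ee K s).map H.subtype, _, h1, h2, h3, h4, (map_ee hm s).symm⟩, ?_⟩
    apply Subgroup.map_injective H.subtype_injective
    rw [hFmap]
  obtain ⟨h1, h2, h3, h4⟩ := family hinj hK hcen hgen F hFinj hF1 hF2
  refine ⟨?_, ?_, ?_, ?_, ?_, ?_⟩
  · by_contra hcon
    apply hH1
    have hT : {s : H | IsTv ρ s} = ∅ := by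
      ext s
      constructor
      · intro hs
        exact absurd (fac_ee hinj hK hcen hs).two_three hcon
      · intro hs
        exact absurd hs (Set.notMem_empty s)
    rw [hT, Subgroup.closure_empty] at hgen
    rw [eq_bot_iff]
    intro g hg
    have : (⟨g, hg⟩ : H) ∈ (⊥ : Subgroup H) := by rw [hgen]; trivial
    have h5 : (⟨g, hg⟩ : H) = 1 := Subgroup.mem_bot.mp this
    exact Subgroup.mem_bot.mpr (congrArg Subtype.val h5)
  · intro E₀
    obtain ⟨s, hs, hE₀⟩ := hdata E₀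
    have hFac : Fac ρ (ee K s) := fac_ee hinj hK hcen hs
    rw [hE₀]
    refine ⟨?_, ?_, ?_⟩
    · haveI := normal_of_gen hinj hK hcen hgen hs
      intro h hh
      rw [Subgroup.mem_normalizer_iff]
      intro g
      constructor
      · rintro ⟨d, hd, rfl⟩
        exact ⟨⟨h, hh⟩ * d * (⟨h, hh⟩ : H)⁻¹, (inferInstance : (ee K s).Normal).conj_mem d hd _, rfl⟩
      · rintro ⟨d, hd, hdg⟩
        have hg : g ∈ H := by
          have h5 : g = h⁻¹ * (d : G) * h := by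
            have h8 : (d : G) = h * g * h⁻¹ := hdg
            rw [h8]
            group
          rw [h5]
          exact H.mul_mem (H.mul_mem (H.inv_mem hh) d.2) hh
        refine ⟨⟨g, hg⟩, ?_, rfl⟩
        have h6 : (⟨h, hh⟩ : H) * ⟨g, hg⟩ * (⟨h, hh⟩ : H)⁻¹ = d := Subtype.ext hdg.symm
        have h7 := (inferInstance : (ee K s).Normal).conj_mem d hd (⟨h, hh⟩ : H)⁻¹
        rw [← h6] at h7
        have h8 : (⟨h, hh⟩ : H)⁻¹ * ((⟨h, hh⟩ : H) * ⟨g, hg⟩ * (⟨h, hh⟩ : H)⁻¹) * (⟨h, hh⟩ : H)⁻¹⁻¹ = ⟨g, hg⟩ := by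
          group
        rwa [h8] at h7
    · obtain ⟨e⟩ := hFac.iso
      exact ⟨(Subgroup.equivMapOfInjective _ H.subtype H.subtype_injective).symm.trans e⟩
    · rw [← hm.toS_comS, hm.card_toS, hFac.card]
  · have := iSupIndep_map H.subtype H.subtype_injective h1
    simpa only [hFmap] using this
  · simp only [← hFmap]
    rw [← Subgroup.map_iSup, h2, ← MonoidHom.range_eq_map, Subgroup.range_subtype]
  · have := toS_iSupIndep hm h3
    convert this using 2 with o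
    rcases o with _ | E₀
    · show V ⊓ Subgroup.centralizer (H : Set G) = toS ι (fixS ρ ⊤)
      rw [hm.toS_fixS, ← MonoidHom.range_eq_map, Subgroup.range_subtype]
    · show ⁅V, (E₀ : Subgroup G)⁆ = toS ι (comS ρ (F E₀))
      rw [hm.toS_comS, hFmap]
  · have h5 := congrArg (toS ι) h4
    rw [hm.toS_sup, hm.toS_top, toS_iSup hm, hm.toS_fixS, ← MonoidHom.range_eq_map, Subgroup.range_subtype] at h5
    simp only [hm.toS_comS, hFmap] at h5
    exact h5

end Statements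

end Cfsg.Agent.Lib.FFFinal
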