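import Mathlib
import Cfsg.Agent.Lib.FFFinal
import Cfsg.Agent.Lib.PSolv
import Cfsg.Agent.Lib.QuadAbs
import Cfsg.Agent.Lib.ThompsonJ
import Cfsg.Agent.Lib.PLocalTools
import Cfsg.Agent.Lib.StableW
import Cfsg.Agent.S0606

/-!
# The linear group of a normal elementary abelian subgroup.
-/

set_option autoImplicit false
set_option linter.unusedSectionVars false
set_option linter.style.haveILetI false

open scoped commutatorElement
open Cfsg

namespace Cfsg.Agent.Lib.FFLin

open Cfsg.Agent.Lib.FFMod Cfsg.Agent.Lib.FFBridge Cfsg.Agent.Lib.FFStruct Cfsg.Agent.Lib.PCore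
  Cfsg.Agent.Lib.ThompsonJ

universe u

section

variable {G : Type u} [Group G] {p : ℕ} [hp : Fact p.Prime]

/-- A module model of a normal elementary abelian subgroup. -/
structure NM (V : Subgroup G) {E : Type u} [AddCommGroup E] [Module (ZMod p) E]
    (ρ₀ : G →* Module.End (ZMod p) E) (ι : Multiplicative E →* G) : Prop where
  inj : Function.Injective ι
  range : ι.range = V
  act : ∀ (g : G) (x : E), ι (Multiplicative.ofAdd (ρ₀ g x)) = g * ι (Multiplicative.ofAdd x) * g⁻¹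

theorem exists_nm [Finite G] {V : Subgroup G} [hn : V.Normal] (hV : IsElementaryAbelian p V) :
    ∃ (E : Type u) (_ : AddCommGroup E) (_ : Module (ZMod p) E) (_ : Finite E)
      (ρ₀ : G →* Module.End (ZMod p) E) (ι : Multiplicative E →* G), NM V ρ₀ ι := by
  have hnorm : (⊤ : Subgroup G) ≤ Subgroup.normalizer (V : Set G) := by
    rw [Subgroup.normalizer_eq_top_iff.mpr hn]
  obtain ⟨E, i1, i2, i3, ρ, ι, hm⟩ := exists_model hV hnorm
  refine ⟨E, i1, i2, i3, ρ.comp (Subgroup.topEquiv (G := G)).symm.toMonoidHom, ι, hm.inj, hm.range, ?_⟩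
  intro g x
  exact hm.act ⟨g, trivial⟩ x

variable {V : Subgroup G} {E : Type u} [AddCommGroup E] [Module (ZMod p) E]
  {ρ₀ : G →* Module.End (ZMod p) E} {ι : Multiplicative E →* G}

/-- The model for the top subgroup. -/
theorem NM.model (hn : NM V ρ₀ ι) : Model V (⊤ : Subgroup G) (ρ₀.comp (⊤ : Subgroup G).subtype) ι :=
  ⟨hn.inj, hn.range, fun h x => hn.act h x⟩

theorem NM.toS_fixS (hn : NM V ρ₀ ι) (B : Subgroup G) :
    toS ι (fixS ρ₀ B) = V ⊓ Subgroup.centralizer (B : Set G) := by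
  have h1 := hn.model.toS_fixS (B.subgroupOf ⊤)
  rw [Subgroup.map_subgroupOf_eq_of_le le_top] at h1
  rw [← h1]
  congr 1
  ext v
  simp only [mem_fixS]
  constructor
  · rintro h ⟨b, _⟩ hb
    exact h b hb
  · intro h b hb
    exact h ⟨b, trivial⟩ hb

theorem NM.toS_comS (hn : NM V ρ₀ ι) (B : Subgroup G) : toS ι (comS ρ₀ B) = ⁅V, B⁆ := by
  have h1 := hn.model.toS_comS (B.subgroupOf ⊤)
  rw [Subgroup.map_subgroupOf_eq_of_le le_top] at h1
  rw [← h1]
  congr 1
  unfold comS
  congr 1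
  ext w
  constructor
  · rintro ⟨b, hb, v, rfl⟩
    exact ⟨⟨b, trivial⟩, hb, v, rfl⟩
  · rintro ⟨b, hb, v, rfl⟩
    exact ⟨b, hb, v, rfl⟩

theorem NM.card_toS (hn : NM V ρ₀ ι) (P : Submodule (ZMod p) E) : Nat.card (toS ι P) = Nat.card P :=
  hn.model.card_toS P

theorem NM.card_E (hn : NM V ρ₀ ι) : Nat.card E = Nat.card V := hn.model.card_E

theorem NM.rho_eq_one_iff (hn : NM V ρ₀ ι) (g : G) : ρ₀ g = 1 ↔ g ∈ Subgroup.centralizer (V : Set G) := by
  constructor
  · intro h
    rw [Subgroup.mem_centralizer_iff]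
    intro x hx
    rw [← hn.range] at hx
    obtain ⟨w, rfl⟩ := hx
    have h1 := hn.act g (Multiplicative.toAdd w)
    rw [h] at h1
    have h2 : ι w = g * ι w * g⁻¹ := h1
    rw [eq_mul_inv_iff_mul_eq] at h2
    exact h2
  · intro h
    apply LinearMap.ext
    intro x
    rw [Subgroup.mem_centralizer_iff] at h
    have h1 := h (ι (Multiplicative.ofAdd x)) (by rw [← hn.range]; exact ⟨_, rfl⟩)
    have h2 : ι (Multiplicative.ofAdd (ρ₀ g x)) = ι (Multiplicative.ofAdd x) := by
      rw [hn.act, ← h1]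
      simp
    exact hn.inj h2

/-- The group of units. -/
abbrev GLE (p : ℕ) (E : Type*) [AddCommGroup E] [Module (ZMod p) E] := (Module.End (ZMod p) E)ˣ

instance instFiniteGLE (p : ℕ) (E : Type*) [AddCommGroup E] [Module (ZMod p) E] [Finite E] : Finite (GLE p E) := by
  haveI : Finite (Module.End (ZMod p) E) :=
    Finite.of_injective (fun f : Module.End (ZMod p) E => (f : E → E)) DFunLike.coe_injective
  infer_instance

/-- The coercion. -/
abbrev coeE (p : ℕ) (E : Type*) [AddCommGroup E] [Module (ZMod p) E] : GLE p E →* Module.End (ZMod p) E :=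
  Units.coeHom _

/-- The representation of a subgroup of units. -/
def lin (Γ₀ : Subgroup (GLE p E)) : Γ₀ →* Module.End (ZMod p) E := (coeE p E).comp Γ₀.subtype

theorem lin_inj (Γ₀ : Subgroup (GLE p E)) : Function.Injective (lin Γ₀) := by
  intro x y h
  apply Subtype.ext
  exact Units.ext h

/-- The homomorphism to the units. -/
abbrev rh (ρ₀ : G →* Module.End (ZMod p) E) : G →* GLE p E := ρ₀.toHomUnits

theorem coe_rh (ρ₀ : G →* Module.End (ZMod p) E) (g : G) : ((rh ρ₀ g : GLE p E) : Module.End (ZMod p) E) = ρ₀ g := rfl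

theorem rh_eq_one_iff (hn : NM V ρ₀ ι) (g : G) : rh ρ₀ g = 1 ↔ g ∈ Subgroup.centralizer (V : Set G) := by
  rw [← hn.rho_eq_one_iff, Units.ext_iff]
  rfl

theorem ker_rh (hn : NM V ρ₀ ι) : (rh ρ₀).ker = Subgroup.centralizer (V : Set G) := by
  ext g
  rw [MonoidHom.mem_ker, rh_eq_one_iff hn]

theorem fixS_map_rh (B : Subgroup G) : fixS (coeE p E) (B.map (rh ρ₀)) = fixS ρ₀ B := by
  ext v
  constructor
  · intro h b hb
    exact h _ ⟨b, hb, rfl⟩
  · rintro h _ ⟨b, hb, rfl⟩
    exact h b hb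

theorem comS_map_rh (B : Subgroup G) : comS (coeE p E) (B.map (rh ρ₀)) = comS ρ₀ B := by
  unfold comS
  congr 1
  ext w
  constructor
  · rintro ⟨_, ⟨b, hb, rfl⟩, v, rfl⟩
    exact ⟨b, hb, v, rfl⟩
  · rintro ⟨b, hb, v, rfl⟩
    exact ⟨_, ⟨b, hb, rfl⟩, v, rfl⟩

theorem fixS_lin {Γ₀ : Subgroup (GLE p E)} (D : Subgroup Γ₀) :
    fixS (lin Γ₀) D = fixS (coeE p E) (D.map Γ₀.subtype) := by
  ext v
  constructor
  · rintro h _ ⟨b, hb, rfl⟩
    exact h b hb
  · intro h b hb
    exact h _ ⟨b, hb, rfl⟩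

theorem comS_lin {Γ₀ : Subgroup (GLE p E)} (D : Subgroup Γ₀) :
    comS (lin Γ₀) D = comS (coeE p E) (D.map Γ₀.subtype) := by
  unfold comS
  congr 1
  ext w
  constructor
  · rintro ⟨b, hb, v, rfl⟩
    exact ⟨_, ⟨b, hb, rfl⟩, v, rfl⟩
  · rintro ⟨_, ⟨b, hb, rfl⟩, v, rfl⟩
    exact ⟨b, hb, v, rfl⟩

/-- Orders of images. -/
theorem card_map_mul {G₁ G₂ : Type*} [Group G₁] [Group G₂] [Finite G₁] (f : G₁ →* G₂) (B : Subgroup G₁) :
    Nat.card (B.map f) * Nat.card ↥(B ⊓ f.ker) = Nat.card B := by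
  have h1 := card_eq_mul_of_relIndex (inf_le_left : B ⊓ f.ker ≤ B)
  have h2 : (B ⊓ f.ker).relIndex B = f.ker.relIndex B := by
    rw [inf_comm, Subgroup.inf_relIndex_right]
  rw [h2, Subgroup.relIndex_ker] at h1
  rw [mul_comm]
  exact h1.symm

variable [Finite G] [Finite E]

theorem bo_image (hn : NM V ρ₀ ι) {A : Subgroup G} (hA : IsBestOffenderOn p V A) :
    IsBO (p := p) (coeE p E) (A.map (rh ρ₀)) := by
  have hcardfix : ∀ B : Subgroup G, Nat.card (fixS (coeE p E) (B.map (rh ρ₀))) =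
      Nat.card ↥(V ⊓ Subgroup.centralizer (B : Set G)) := by
    intro B
    rw [fixS_map_rh, ← hn.toS_fixS, hn.card_toS]
  refine ⟨?_, ?_, ?_⟩
  · intro B hB
    set B₁ := A ⊓ B.comap (rh ρ₀) with hB₁
    have hmap : B₁.map (rh ρ₀) = B := by
      apply le_antisymm
      · rintro _ ⟨x, hx, rfl⟩
        exact hx.2
      · intro y hy
        obtain ⟨a, ha, rfl⟩ := hB hy
        exact ⟨a, ⟨ha, hy⟩, rfl⟩
    have h1 := hA.1 B₁ inf_le_left
    have h2 := card_map_mul (rh ρ₀) B₁
    have h3 := card_map_mul (rh ρ₀) A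
    have h4 : B₁ ⊓ (rh ρ₀).ker = A ⊓ (rh ρ₀).ker := by
      apply le_antisymm
      · exact inf_le_inf_right _ inf_le_left
      · rintro x ⟨hx, hx2⟩
        refine ⟨⟨hx, ?_⟩, hx2⟩
        show rh ρ₀ x ∈ B
        rw [MonoidHom.mem_ker.mp hx2]
        exact B.one_mem
    rw [hmap, h4] at h2
    unfold fF
    rw [← hmap, hcardfix, hcardfix]
    rw [← hmap] at h2
    rw [← h2, ← h3] at h1
    have hpos : 0 < Nat.card ↥(A ⊓ (rh ρ₀).ker) := Nat.card_pos
    apply Nat.le_of_mul_le_mul_right _ hpos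
    calc _ = Nat.card ↥(B₁.map (rh ρ₀)) * Nat.card ↥(A ⊓ (rh ρ₀).ker) *
          Nat.card ↥(V ⊓ Subgroup.centralizer (B₁ : Set G)) := by ring
      _ ≤ _ := h1
      _ = _ := by ring
  · rintro _ ⟨a, ha, rfl⟩ _ ⟨b, hb, rfl⟩
    have h1 : ⁅a, b⁆ ∈ Subgroup.centralizer (V : Set G) :=
      hA.2.1 (Subgroup.commutator_mem_commutator ha hb)
    rw [← rh_eq_one_iff hn, map_commutatorElement, commutatorElement_eq_one_iff_mul_comm] at h1
    exact h1
  · rintro _ ⟨a, ha, rfl⟩
    have h1 := hA.2.2 a ha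
    rw [← rh_eq_one_iff hn, map_pow] at h1
    exact h1

/-- A best offender of the linear group restricts to a subgroup. -/
theorem bo_restrict {Γ₀ B : Subgroup (GLE p E)} (hB : IsBO (p := p) (coeE p E) B) (hle : B ≤ Γ₀) :
    IsBO (p := p) (lin Γ₀) (B.subgroupOf Γ₀) := by
  have hfF : ∀ D : Subgroup Γ₀, fF (lin Γ₀) D = fF (coeE p E) (D.map Γ₀.subtype) := by
    intro D
    unfold fF
    rw [fixS_lin, Subgroup.card_map_of_injective Γ₀.subtype_injective]
  refine ⟨?_, ?_, ?_⟩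
  · intro D hD
    rw [hfF, hfF, Subgroup.map_subgroupOf_eq_of_le hle]
    apply hB.le
    have := Subgroup.map_mono (f := Γ₀.subtype) hD
    rwa [Subgroup.map_subgroupOf_eq_of_le hle] at this
  · intro a ha b hb
    apply Subtype.ext
    exact hB.comm _ ha _ hb
  · intro a ha
    apply Subtype.ext
    exact hB.pow _ ha

/-- The order formula for offenders in `G`. -/
theorem order_formula (hn : NM V ρ₀ ι) {Γ₀ : Subgroup (GLE p E)} (hff : FFH (p := p) (lin Γ₀)) {A : Subgroup G}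
    (hA : IsBestOffenderOn p V A) (hle : A.map (rh ρ₀) ≤ Γ₀) :
    Nat.card A * Nat.card ↥(V ⊓ Subgroup.centralizer (A : Set G)) =
      Nat.card ↥(A ⊓ Subgroup.centralizer (V : Set G)) * Nat.card V := by
  have h1 := fF_eq_card hff (bo_restrict (bo_image hn hA) hle)
  unfold fF at h1
  rw [fixS_lin, Subgroup.map_subgroupOf_eq_of_le hle, fixS_map_rh, ← hn.card_toS, hn.toS_fixS, hn.card_E,
    card_subgroupOf_of_le hle] at h1
  have h2 := card_map_mul (rh ρ₀) A
  rw [ker_rh hn] at h2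
  rw [← h1, ← h2]
  ring

end

section Core

variable {G : Type u} [Group G] [Finite G] {p : ℕ} [hp : Fact p.Prime]

/-- The group theoretic part of the argument. -/
theorem core_s0619 (V : Subgroup G) [hVn : V.Normal] (hV : IsElementaryAbelian p V)
    (hord : ∀ A ∈ maxElementaryAbelianSubgroups p G, Nat.card A * Nat.card ↥(V ⊓ Subgroup.centralizer (A : Set G)) =
      Nat.card ↥(A ⊓ Subgroup.centralizer (V : Set G)) * Nat.card V) :
    ⁅omegaOne p (centerThompsonOf p (Subgroup.centralizer (V : Set G))), thompsonSubgroup p G⁆ ≤ V := by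
  set C := Subgroup.centralizer (V : Set G) with hC
  haveI hCn : C.Normal := by
    rw [hC]
    infer_instance
  set J₀ := thompsonSubgroupOf p C with hJ₀
  set Z₀ := omegaOne p (centerThompsonOf p C) with hZ₀
  have hVC : V ≤ C := by
    intro x hx
    rw [hC, Subgroup.mem_centralizer_iff]
    intro y hy
    exact ea_comm hV hy hx
  -- the subgroups `T`
  have hT : ∀ A ∈ maxElementaryAbelianSubgroups p G, (A ⊓ C) ⊔ V ≤ J₀ ∧
      Nat.card ↥((A ⊓ C) ⊔ V) = Nat.card A := by
    intro A hA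
    have hTea : IsElementaryAbelian p ((A ⊓ C) ⊔ V) := by
      apply ea_sup (ea_mono hA.1 inf_le_left) hV
      rintro a ⟨_, ha⟩ b hb
      exact (Subgroup.mem_centralizer_iff.mp ha b hb).symm
    have hcap : (A ⊓ C) ⊓ V = V ⊓ Subgroup.centralizer (A : Set G) := by
      apply le_antisymm
      · rintro x ⟨⟨hx1, _⟩, hx3⟩
        refine ⟨hx3, Subgroup.mem_centralizer_iff.mpr ?_⟩
        intro y hy
        exact ea_comm hA.1 hy hx1
      · rintro x ⟨hx1, hx2⟩
        exact ⟨⟨mem_of_mem_max hA (hV.2 x hx1) hx2, hVC hx1⟩, hx1⟩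
    have hcard := Cfsg.Agent.Lib.Replacement.card_sup_mul_card_inf (A ⊓ C) V (by
      rw [Subgroup.normalizer_eq_top_iff.mpr hVn]
      exact le_top)
    rw [hcap, ← hord A hA] at hcard
    have hpos : 0 < Nat.card ↥(V ⊓ Subgroup.centralizer (A : Set G)) := Nat.card_pos
    have hcT : Nat.card ↥((A ⊓ C) ⊔ V) = Nat.card A := Nat.eq_of_mul_eq_mul_right hpos hcard
    refine ⟨?_, hcT⟩
    have hle : (A ⊓ C) ⊔ V ≤ C := sup_le inf_le_right hVC
    have hmax : ((A ⊓ C) ⊔ V).subgroupOf C ∈ maxElementaryAbelianSubgroups p C := by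
      refine ⟨ea_comap hTea _ C.subtype_injective, ?_⟩
      intro B hB
      rw [card_subgroupOf_of_le hle, hcT]
      have h1 := hA.2 _ (ea_map hB C.subtype)
      rwa [Subgroup.card_map_of_injective C.subtype_injective] at h1
    have h2 := Subgroup.map_mono (f := C.subtype) (le_thompson hmax)
    rwa [Subgroup.map_subgroupOf_eq_of_le hle] at h2
  obtain ⟨A₀, hA₀⟩ := exists_mem_max p G
  have hVJ : V ≤ J₀ := le_sup_right.trans (hT A₀ hA₀).1
  have hJC : J₀ ≤ C := Subgroup.map_subtype_le _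
  have hZJ : Z₀ ≤ J₀ ⊓ Subgroup.centralizer (J₀ : Set G) := Cfsg.Agent.Lib.PLocalTools.omegaOne_le p _
  have hZc : ∀ x ∈ Z₀, ∀ y ∈ J₀, y * x = x * y := by
    intro x hx y hy
    exact Subgroup.mem_centralizer_iff.mp (hZJ hx).2 y hy
  have hVZ : V ≤ Z₀ := by
    intro x hx
    apply Subgroup.subset_closure
    refine ⟨⟨hVJ hx, Subgroup.mem_centralizer_iff.mpr ?_⟩, hV.2 x hx⟩
    intro y hy
    exact (Subgroup.mem_centralizer_iff.mp (hJC hy) x hx).symm
  -- `Z₀` is normal and elementary abelian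
  have hJn : J₀.Normal :=
    Cfsg.Agent.Lib.PResid.normal_map_of_characteristic hCn (thompson_characteristic p)
  have hCJn : (centerThompsonOf p C).Normal := by
    unfold centerThompsonOf
    haveI := hJn
    rw [← hJ₀]
    infer_instance
  haveI hZn : Z₀.Normal := Cfsg.Agent.Lib.StableW.omegaOne_normal p _ hCJn
  have hZea : IsElementaryAbelian p Z₀ := by
    apply isElementaryAbelian_closure
    · rintro a ⟨ha, _⟩ b ⟨hb, _⟩
      exact (Subgroup.mem_centralizer_iff.mp ha.2 b hb.1).symm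
    · rintro a ⟨_, ha⟩
      exact ha
  -- each maximal elementary abelian subgroup
  have hmain : ∀ A ∈ maxElementaryAbelianSubgroups p G, ∀ z ∈ Z₀, ∀ a ∈ A, ⁅z, a⁆ ∈ V := by
    intro A hA z hz a ha
    have hbo := Cfsg.Agent.S0606.result Z₀ hZea A hA
    have h1 := hbo.1 (A ⊓ C) inf_le_left
    have hZfix : Z₀ ⊓ Subgroup.centralizer ((A ⊓ C : Subgroup G) : Set G) = Z₀ := by
      apply inf_eq_left.mpr
      intro x hx
      rw [Subgroup.mem_centralizer_iff]
      intro y hy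
      exact (hZc x hx y ((le_sup_left.trans (hT A hA).1) hy))
    rw [hZfix] at h1
    set ZA := Z₀ ⊓ Subgroup.centralizer (A : Set G) with hZA
    have hcap : V ⊓ ZA = V ⊓ Subgroup.centralizer (A : Set G) := by
      apply le_antisymm
      · exact le_inf inf_le_left (inf_le_right.trans inf_le_right)
      · rintro x ⟨hx1, hx2⟩
        exact ⟨hx1, hVZ hx1, hx2⟩
    have hcard := Cfsg.Agent.Lib.Replacement.card_sup_mul_card_inf V ZA (by
      intro v hv
      apply Cfsg.Agent.Lib.Replacement.mem_normalizer_of_forall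
      intro w hw
      have : v * w * v⁻¹ = w := by
        rw [ea_comm hZea (hVZ hv) hw.1]
        group
      rw [this]
      exact hw)
    rw [hcap] at hcard
    have hord' := hord A hA
    -- the arithmetic
    have hZle : Nat.card Z₀ ≤ Nat.card ↥(V ⊔ ZA) := by
      have hpos : 0 < Nat.card ↥(A ⊓ C) := Nat.card_pos
      have hposc : 0 < Nat.card ↥(V ⊓ Subgroup.centralizer (A : Set G)) := Nat.card_pos
      apply Nat.le_of_mul_le_mul_left _ hpos
      apply Nat.le_of_mul_le_mul_right _ hposc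
      calc Nat.card ↥(A ⊓ C) * Nat.card Z₀ * Nat.card ↥(V ⊓ Subgroup.centralizer (A : Set G))
          ≤ Nat.card A * Nat.card ZA * Nat.card ↥(V ⊓ Subgroup.centralizer (A : Set G)) :=
            Nat.mul_le_mul_right _ h1
        _ = (Nat.card A * Nat.card ↥(V ⊓ Subgroup.centralizer (A : Set G))) * Nat.card ZA := by ring
        _ = Nat.card ↥(A ⊓ C) * (Nat.card V * Nat.card ZA) := by rw [hord']; ring
        _ = Nat.card ↥(A ⊓ C) * (Nat.card ↥(V ⊔ ZA) * Nat.card ↥(V ⊓ Subgroup.centralizer (A : Set G))) := by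
            rw [hcard]
        _ = _ := by ring
    have hVZA : V ⊔ ZA = Z₀ := by
      have hle : V ⊔ ZA ≤ Z₀ := sup_le hVZ inf_le_left
      exact Subgroup.eq_of_le_of_card_ge hle hZle
    rw [← hVZA] at hz
    obtain ⟨v, hv, w, hw, rfl⟩ := Cfsg.Agent.Lib.FFMod.mem_sup_of_comm (X := V) (Y := ZA) (fun x hx y hy => ea_comm hZea (hVZ hx) hy.1) hz
    have hwa : w * a = a * w := (Subgroup.mem_centralizer_iff.mp hw.2 a ha).symm
    have h2 : ⁅v * w, a⁆ = v * (a * v⁻¹ * a⁻¹) := by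
      rw [commutatorElement_def]
      have h3 : v * w * a * (v * w)⁻¹ * a⁻¹ = v * (w * a) * w⁻¹ * v⁻¹ * a⁻¹ := by group
      rw [h3, hwa]
      group
    rw [h2]
    exact V.mul_mem hv (hVn.conj_mem _ (V.inv_mem hv) a)
  rw [Subgroup.commutator_le]
  intro z hz g hg
  have hle : thompsonSubgroup p G ≤
      (Subgroup.centralizer ({QuotientGroup.mk' V z} : Set (G ⧸ V))).comap (QuotientGroup.mk' V) := by
    refine sSup_le ?_
    intro A hA a ha
    rw [Subgroup.mem_comap, Subgroup.mem_centralizer_iff]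
    intro y hy
    rw [Set.mem_singleton_iff] at hy
    rw [hy]
    have h1 := hmain A hA z hz a ha
    rw [← QuotientGroup.ker_mk' V, MonoidHom.mem_ker, map_commutatorElement,
      commutatorElement_eq_one_iff_mul_comm] at h1
    exact h1
  have h1 := hle hg
  rw [Subgroup.mem_comap, Subgroup.mem_centralizer_iff] at h1
  have h2 := h1 _ (Set.mem_singleton _)
  rw [← QuotientGroup.ker_mk' V, MonoidHom.mem_ker, map_commutatorElement, commutatorElement_eq_one_iff_mul_comm]
  exact h2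

theorem s0619 (hsep : IsPSolvable p G) (V : Subgroup G) [hVn : V.Normal] (hV : IsElementaryAbelian p V)
    (hO : pCore p (G ⧸ Subgroup.centralizer (V : Set G)) = ⊥) :
    ⁅omegaOne p (centerThompsonOf p (Subgroup.centralizer (V : Set G))), thompsonSubgroup p G⁆ ≤ V := by
  apply core_s0619 V hV
  obtain ⟨E, _, _, _, ρ₀, ι, hn⟩ := exists_nm (p := p) hV
  intro A hA
  have hbo := Cfsg.Agent.S0606.result V hV A hA
  set Γ₀ := (rh ρ₀).range with hΓ₀
  have hsurj : Function.Surjective (rh ρ₀).rangeRestrict := (rh ρ₀).rangeRestrict_surjective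
  have hsep' : IsPSolvable p Γ₀ := Cfsg.Agent.Lib.PSolv.isPSolvable_of_surjective hsep _ hsurj
  have hO' : pCore p Γ₀ = ⊥ := by
    haveI : (Subgroup.centralizer (V : Set G)).Normal := inferInstance
    have hker : (QuotientGroup.mk' (Subgroup.centralizer (V : Set G))).ker = (rh ρ₀).rangeRestrict.ker := by
      rw [QuotientGroup.ker_mk', MonoidHom.ker_rangeRestrict, ker_rh hn]
    obtain ⟨φ, _⟩ := Cfsg.Agent.Lib.PSolv.exists_equiv_of_ker_eq (QuotientGroup.mk' _) (rh ρ₀).rangeRestrict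
      (QuotientGroup.mk'_surjective _) hsurj hker
    have := Cfsg.Agent.Lib.PSolv.map_pCore_equiv p φ
    rw [hO, Subgroup.map_bot] at this
    exact this.symm
  have hff : FFH (p := p) (lin Γ₀) :=
    ⟨lin_inj Γ₀, Cfsg.Agent.Lib.QuadAbs.centralizer_pPrimeCore_le hsep' hO'⟩
  have hle : A.map (rh ρ₀) ≤ Γ₀ := Subgroup.map_le_range _ _
  exact order_formula hn hff hbo hle

end Core

end Cfsg.Agent.Lib.FFLin
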