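import Mathlib
import Cfsg.Agent.Lib.SL2Inv
import Cfsg.Agent.Lib.CharTwoLocal

/-!
# Central products of two copies of `SL₂(q)`, elementwise.
-/

set_option autoImplicit false

namespace Cfsg.Agent.Lib.SL2Pair

open Cfsg.Agent.Lib.SL2Inv

variable {G : Type*} [Group G]

/-- `L₁` and `L₂` commute elementwise and meet in `{1, j}`. -/
structure Pair (L₁ L₂ : Subgroup G) (j : G) : Prop where
  comm : ∀ x ∈ L₁, ∀ y ∈ L₂, x * y = y * x
  inf : ∀ x, x ∈ L₁ → x ∈ L₂ → x = 1 ∨ x = j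
  j₁ : j ∈ L₁
  j₂ : j ∈ L₂
  jj : j * j = 1
  j1 : j ≠ 1

theorem pair_of (L₁ L₂ : Subgroup G) (j : G) (hc : ∀ x ∈ L₁, ∀ y ∈ L₂, x * y = y * x)
    (hj : orderOf j = 2) (hm : L₁ ⊓ L₂ = Subgroup.zpowers j) : Pair L₁ L₂ j := by
  have hjm : j ∈ L₁ ⊓ L₂ := by rw [hm]; exact Subgroup.mem_zpowers j
  have hj2 : j * j = 1 := by
    have := pow_orderOf_eq_one j
    rwa [hj, pow_two] at this
  have hj1 : j ≠ 1 := by
    intro h
    rw [h, orderOf_one] at hj
    omega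
  refine ⟨hc, ?_, hjm.1, hjm.2, hj2, hj1⟩
  intro x hx1 hx2
  have h1 : x ∈ Subgroup.zpowers j := by rw [← hm]; exact ⟨hx1, hx2⟩
  obtain ⟨k, rfl⟩ := h1
  have h2 : j ^ (2 : ℤ) = 1 := by
    rw [show (2 : ℤ) = ((2 : ℕ) : ℤ) from rfl, zpow_natCast, pow_two]; exact hj2
  rcases Int.even_or_odd k with he | ho
  · left
    obtain ⟨m, rfl⟩ := he
    show j ^ (m + m) = 1
    rw [← two_mul, zpow_mul, h2, one_zpow]
  · right
    obtain ⟨m, rfl⟩ := ho
    show j ^ (2 * m + 1) = j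
    rw [zpow_add, zpow_mul, h2, one_zpow, one_mul, zpow_one]

variable {L₁ L₂ : Subgroup G} {j : G}

theorem Pair.symm (P : Pair L₁ L₂ j) : Pair L₂ L₁ j :=
  ⟨fun x hx y hy => (P.comm y hy x hx).symm, fun x h2 h1 => P.inf x h1 h2, P.j₂, P.j₁, P.jj, P.j1⟩

theorem Pair.mem_sup (P : Pair L₁ L₂ j) {x : G} (hx : x ∈ L₁ ⊔ L₂) :
    ∃ a ∈ L₁, ∃ b ∈ L₂, x = a * b := by
  have hn : L₁ ≤ Subgroup.normalizer (L₂ : Set G) := by
    intro a ha
    rw [Subgroup.mem_normalizer_iff]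
    intro b
    constructor
    · intro hb
      rw [P.comm a ha b hb]
      simpa using hb
    · intro hb
      have h2 := P.comm a ha _ hb
      have h3 : b = a * b * a⁻¹ := by
        calc b = a⁻¹ * ((a * b * a⁻¹) * a) := by group
          _ = a⁻¹ * (a * (a * b * a⁻¹)) := by rw [← h2]
          _ = a * b * a⁻¹ := by group
      rw [h3]
      exact hb
  exact Cfsg.Agent.Lib.CharTwoLocal.exists_mul_of_mem_sup hn hx

theorem Pair.mul_mem_sup (_P : Pair L₁ L₂ j) {a b : G} (ha : a ∈ L₁) (hb : b ∈ L₂) :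
    a * b ∈ L₁ ⊔ L₂ := Subgroup.mul_mem_sup ha hb

theorem Pair.sq (P : Pair L₁ L₂ j) {a b : G} (ha : a ∈ L₁) (hb : b ∈ L₂) :
    (a * b) * (a * b) = (a * a) * (b * b) := by
  calc (a * b) * (a * b) = a * (b * a) * b := by group
    _ = a * (a * b) * b := by rw [P.comm a ha b hb]
    _ = (a * a) * (b * b) := by group

/-- Squares of the two factors of an involution. -/
theorem Pair.square_one_cases (P : Pair L₁ L₂ j) {a b : G} (ha : a ∈ L₁) (hb : b ∈ L₂)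
    (h : (a * b) * (a * b) = 1) : (a * a = 1 ∧ b * b = 1) ∨ (a * a = j ∧ b * b = j) := by
  rw [P.sq ha hb] at h
  have h1 : a * a = (b * b)⁻¹ := eq_inv_of_mul_eq_one_left h
  have h2 : a * a ∈ L₂ := by rw [h1]; exact L₂.inv_mem (L₂.mul_mem hb hb)
  rcases P.inf _ (L₁.mul_mem ha ha) h2 with h3 | h3
  · left
    refine ⟨h3, ?_⟩
    rw [h3, one_mul] at h
    exact h
  · right
    refine ⟨h3, ?_⟩
    rw [h3] at h
    have h4 : j⁻¹ = j := by rw [inv_eq_iff_mul_eq_one]; exact P.jj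
    have h5 : b * b = j⁻¹ := eq_inv_of_mul_eq_one_right h
    rw [h5, h4]

/-- Elements of the central product with square `j` lie in a factor. -/
theorem Pair.sq_j_mem (P : Pair L₁ L₂ j) (D₁ : Data L₁ j) (D₂ : Data L₂ j) {y : G} (hy : y ∈ L₁ ⊔ L₂) (h : y * y = j) :
    y ∈ L₁ ∨ y ∈ L₂ := by
  obtain ⟨a, ha, b, hb, rfl⟩ := P.mem_sup hy
  rw [P.sq ha hb] at h
  have h1 : a * a = j * (b * b)⁻¹ := by rw [← h]; group
  have h2 : a * a ∈ L₂ := by rw [h1]; exact L₂.mul_mem P.j₂ (L₂.inv_mem (L₂.mul_mem hb hb))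
  rcases P.inf _ (L₁.mul_mem ha ha) h2 with h3 | h3
  · -- `a ∈ {1, j}` so the product lies in `L₂`
    right
    rcases D₁.sq_one a ha h3 with h4 | h4
    · rw [h4, one_mul]; exact hb
    · rw [h4]; exact L₂.mul_mem P.j₂ hb
  · left
    rw [h3] at h
    have h5 : b * b = 1 := by
      have : j * (b * b) = j * 1 := by rw [h, mul_one]
      exact mul_left_cancel this
    rcases D₂.sq_one b hb h5 with h4 | h4
    · rw [h4, mul_one]; exact ha
    · rw [h4]; exact L₁.mul_mem ha P.j₁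

end Cfsg.Agent.Lib.SL2Pair
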