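import Mathlib
import Cfsg.Agent.Lib.SL2Pair

/-!
# Two commuting copies of `SL₂(q)` interchanged by an element squaring to the central involution.

If `n` interchanges `L₁` and `L₂` and `n ^ 2 = j`, then `j` is not conjugate to any other
involution of its centralizer.
-/

set_option autoImplicit false

namespace Cfsg.Agent.Lib.FWSwap

open Cfsg.Agent.Lib.SL2Core Cfsg.Agent.Lib.SL2Inv Cfsg.Agent.Lib.SL2Pair
open Matrix

section Matrix

variable {F : Type*} [Field F]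

theorem comm_w₀ (a : SL2 F) (h : a * w₀ = w₀ * a) :
    (a : Matrix (Fin 2) (Fin 2) F) 1 1 = (a : Matrix (Fin 2) (Fin 2) F) 0 0 ∧
      (a : Matrix (Fin 2) (Fin 2) F) 1 0 = -(a : Matrix (Fin 2) (Fin 2) F) 0 1 := by
  have e : (a : Matrix (Fin 2) (Fin 2) F) * ((w₀ : SL2 F) : Matrix (Fin 2) (Fin 2) F) =
      ((w₀ : SL2 F) : Matrix (Fin 2) (Fin 2) F) * (a : Matrix (Fin 2) (Fin 2) F) := congrArg Subtype.val h
  rw [w₀_coe, Matrix.eta_fin_two (a : Matrix (Fin 2) (Fin 2) F), Matrix.mul_fin_two, Matrix.mul_fin_two] at e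
  have e00 := congrFun (congrFun e 0) 0
  have e01 := congrFun (congrFun e 0) 1
  simp at e00 e01
  exact ⟨e01.symm, by linear_combination -e00⟩

theorem comm_of_comm_w₀ (a b : SL2 F) (ha : a * w₀ = w₀ * a) (hb : b * w₀ = w₀ * b) : a * b = b * a := by
  obtain ⟨a1, a2⟩ := comm_w₀ a ha
  obtain ⟨b1, b2⟩ := comm_w₀ b hb
  apply Subtype.ext
  show (a : Matrix (Fin 2) (Fin 2) F) * (b : Matrix (Fin 2) (Fin 2) F) = (b : Matrix (Fin 2) (Fin 2) F) * (a : Matrix (Fin 2) (Fin 2) F)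
  rw [Matrix.eta_fin_two (a : Matrix (Fin 2) (Fin 2) F), Matrix.eta_fin_two (b : Matrix (Fin 2) (Fin 2) F),
    Matrix.mul_fin_two, Matrix.mul_fin_two, a1, a2, b1, b2]
  ext i j
  fin_cases i <;> fin_cases j <;> simp <;> ring

theorem invert_of_w₀ (w a : SL2 F) (hw : w * w₀ = w₀⁻¹ * w) (ha : a * w₀ = w₀ * a) : w * a = a⁻¹ * w := by
  obtain ⟨a1, a2⟩ := comm_w₀ a ha
  have e : (w : Matrix (Fin 2) (Fin 2) F) * ((w₀ : SL2 F) : Matrix (Fin 2) (Fin 2) F) =
      (((w₀⁻¹ : SL2 F)) : Matrix (Fin 2) (Fin 2) F) * (w : Matrix (Fin 2) (Fin 2) F) := congrArg Subtype.val hw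
  have hi : ((w₀⁻¹ : SL2 F) : Matrix (Fin 2) (Fin 2) F) = !![0, -1; 1, 0] := by
    ext i j
    fin_cases i <;> fin_cases j
    · have := inv00 (w₀ : SL2 F); rw [w₀_coe] at this; simpa using this
    · have := inv01 (w₀ : SL2 F); rw [w₀_coe] at this; simpa using this
    · have := inv10 (w₀ : SL2 F); rw [w₀_coe] at this; simpa using this
    · have := inv11 (w₀ : SL2 F); rw [w₀_coe] at this; simpa using this
  rw [w₀_coe, hi, Matrix.eta_fin_two (w : Matrix (Fin 2) (Fin 2) F), Matrix.mul_fin_two, Matrix.mul_fin_two] at e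
  have e00 := congrFun (congrFun e 0) 0
  have e01 := congrFun (congrFun e 0) 1
  simp at e00 e01
  apply Subtype.ext
  show (w : Matrix (Fin 2) (Fin 2) F) * (a : Matrix (Fin 2) (Fin 2) F) =
    ((a⁻¹ : SL2 F) : Matrix (Fin 2) (Fin 2) F) * (w : Matrix (Fin 2) (Fin 2) F)
  have hai : ((a⁻¹ : SL2 F) : Matrix (Fin 2) (Fin 2) F) =
      !![(a : Matrix (Fin 2) (Fin 2) F) 1 1, -(a : Matrix (Fin 2) (Fin 2) F) 0 1;
        -(a : Matrix (Fin 2) (Fin 2) F) 1 0, (a : Matrix (Fin 2) (Fin 2) F) 0 0] := by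
    ext i j
    fin_cases i <;> fin_cases j
    · simpa using inv00 a
    · simpa using inv01 a
    · simpa using inv10 a
    · simpa using inv11 a
  rw [hai, Matrix.eta_fin_two (a : Matrix (Fin 2) (Fin 2) F), Matrix.eta_fin_two (w : Matrix (Fin 2) (Fin 2) F),
    Matrix.mul_fin_two, Matrix.mul_fin_two]
  simp only [a1, a2]
  have e00' : (w : Matrix (Fin 2) (Fin 2) F) 1 0 = (w : Matrix (Fin 2) (Fin 2) F) 0 1 := e00.symm
  have e01' : (w : Matrix (Fin 2) (Fin 2) F) 1 1 = -(w : Matrix (Fin 2) (Fin 2) F) 0 0 := by linear_combination e01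
  rw [e00', e01']
  ext i j
  fin_cases i <;> fin_cases j <;> simp <;> ring

end Matrix

section Group

variable {G : Type*} [Group G]

/-- What we need about centralizers of elements of order four in a copy of `SL₂(q)`. -/
structure Cent (L : Subgroup G) (j : G) : Prop where
  comm : ∀ t ∈ L, t * t = j → ∀ a ∈ L, ∀ b ∈ L, a * t = t * a → b * t = t * b → a * b = b * a
  invert : ∀ t ∈ L, t * t = j → ∀ w ∈ L, ∀ a ∈ L, w * t * w⁻¹ = t⁻¹ → a * t = t * a → w * a * w⁻¹ = a⁻¹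

theorem cent_of {F : Type*} [Field F] [Fintype F] (hF : Odd (Fintype.card F)) (L : Subgroup G)
    (e : ↥L ≃* Matrix.SpecialLinearGroup (Fin 2) F) (j : G) (hj : orderOf j = 2) (hjL : j ∈ L) :
    Cent L j := by
  have h2 : (2 : F) ≠ 0 := two_ne_zero_of_odd hF
  have hj2 : j * j = 1 := by
    have := pow_orderOf_eq_one j
    rwa [hj, pow_two] at this
  have hj1 : j ≠ 1 := by
    intro h
    rw [h, orderOf_one] at hj
    omega
  have hej : e ⟨j, hjL⟩ = negS 1 := by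
    have h3 : e ⟨j, hjL⟩ * e ⟨j, hjL⟩ = 1 := by
      rw [← map_mul]
      have : (⟨j, hjL⟩ * ⟨j, hjL⟩ : ↥L) = 1 := Subtype.ext hj2
      rw [this, map_one]
    rcases mul_self_eq_one h2 _ h3 with h4 | h4
    · exfalso
      apply hj1
      have h5 := e.injective (h4.trans (map_one e).symm)
      exact congrArg Subtype.val h5
    · exact h4
  have hlift : ∀ t (ht : t ∈ L), t * t = j → e ⟨t, ht⟩ * e ⟨t, ht⟩ = negS 1 := by
    intro t ht h3
    rw [← map_mul, ← hej]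
    congr 1
    exact Subtype.ext h3
  have hstd : ∀ t (ht : t ∈ L), t * t = j → ∃ U : SL2 F, U * e ⟨t, ht⟩ * U⁻¹ = w₀ :=
    fun t ht h3 => conj_of_sq h2 _ _ (hlift t ht h3) w₀_sq
  constructor
  · intro t ht ht2 a ha b hb hat hbt
    obtain ⟨U, hU⟩ := hstd t ht ht2
    set T := e ⟨t, ht⟩ with hT
    set A := e ⟨a, ha⟩ with hA
    set B := e ⟨b, hb⟩ with hB
    have hAT : A * T = T * A := by
      rw [hA, hT, ← map_mul, ← map_mul]
      congr 1
      exact Subtype.ext hat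
    have hBT : B * T = T * B := by
      rw [hB, hT, ← map_mul, ← map_mul]
      congr 1
      exact Subtype.ext hbt
    have hconj : ∀ X : SL2 F, X * T = T * X → (U * X * U⁻¹) * w₀ = w₀ * (U * X * U⁻¹) := by
      intro X hX
      rw [← hU]
      calc (U * X * U⁻¹) * (U * T * U⁻¹) = U * (X * T) * U⁻¹ := by group
        _ = U * (T * X) * U⁻¹ := by rw [hX]
        _ = (U * T * U⁻¹) * (U * X * U⁻¹) := by group
    have h5 := comm_of_comm_w₀ _ _ (hconj A hAT) (hconj B hBT)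
    have h6 : A * B = B * A := by
      have h7 : U * (A * B) * U⁻¹ = U * (B * A) * U⁻¹ := by
        calc U * (A * B) * U⁻¹ = (U * A * U⁻¹) * (U * B * U⁻¹) := by group
          _ = (U * B * U⁻¹) * (U * A * U⁻¹) := h5
          _ = U * (B * A) * U⁻¹ := by group
      exact mul_left_cancel (mul_right_cancel h7)
    have h8 : e (⟨a, ha⟩ * ⟨b, hb⟩) = e (⟨b, hb⟩ * ⟨a, ha⟩) := by
      rw [map_mul, map_mul]; exact h6
    exact congrArg Subtype.val (e.injective h8)
  · intro t ht ht2 w hw a ha hwt hat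
    obtain ⟨U, hU⟩ := hstd t ht ht2
    set T := e ⟨t, ht⟩ with hT
    set A := e ⟨a, ha⟩ with hA
    set W := e ⟨w, hw⟩ with hW
    have hAT : A * T = T * A := by
      rw [hA, hT, ← map_mul, ← map_mul]
      congr 1
      exact Subtype.ext hat
    have hWT : W * T * W⁻¹ = T⁻¹ := by
      rw [hW, hT, ← map_inv, ← map_inv, ← map_mul, ← map_mul]
      congr 1
      exact Subtype.ext hwt
    have h3 : (U * A * U⁻¹) * w₀ = w₀ * (U * A * U⁻¹) := by
      rw [← hU]
      calc (U * A * U⁻¹) * (U * T * U⁻¹) = U * (A * T) * U⁻¹ := by group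
        _ = U * (T * A) * U⁻¹ := by rw [hAT]
        _ = (U * T * U⁻¹) * (U * A * U⁻¹) := by group
    have h4 : (U * W * U⁻¹) * w₀ = w₀⁻¹ * (U * W * U⁻¹) := by
      rw [← hU]
      have h5 : W * T = T⁻¹ * W := by
        calc W * T = (W * T * W⁻¹) * W := by group
          _ = T⁻¹ * W := by rw [hWT]
      calc (U * W * U⁻¹) * (U * T * U⁻¹) = U * (W * T) * U⁻¹ := by group
        _ = U * (T⁻¹ * W) * U⁻¹ := by rw [h5]
        _ = (U * T * U⁻¹)⁻¹ * (U * W * U⁻¹) := by group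
    have h5 := invert_of_w₀ _ _ h4 h3
    have h6 : W * A = A⁻¹ * W := by
      have h7 : U * (W * A) * U⁻¹ = U * (A⁻¹ * W) * U⁻¹ := by
        calc U * (W * A) * U⁻¹ = (U * W * U⁻¹) * (U * A * U⁻¹) := by group
          _ = (U * A * U⁻¹)⁻¹ * (U * W * U⁻¹) := h5
          _ = U * (A⁻¹ * W) * U⁻¹ := by group
      exact mul_left_cancel (mul_right_cancel h7)
    have h8 : e (⟨w, hw⟩ * ⟨a, ha⟩) = e (⟨a, ha⟩⁻¹ * ⟨w, hw⟩) := by
      rw [map_mul, map_mul, map_inv]; exact h6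
    have h9 : w * a = a⁻¹ * w := congrArg Subtype.val (e.injective h8)
    calc w * a * w⁻¹ = (a⁻¹ * w) * w⁻¹ := by rw [h9]
      _ = a⁻¹ := by group

end Group

end Cfsg.Agent.Lib.FWSwap
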