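import Mathlib
import Cfsg.Agent.Lib.FWSwap

/-!
# The fusion argument for two `SL₂`'s interchanged by a square root of the central involution.
-/

set_option autoImplicit false

namespace Cfsg.Agent.Lib.FWSwap

open Cfsg.Agent.Lib.SL2Inv Cfsg.Agent.Lib.SL2Pair

variable {G : Type*} [Group G]

/-- The general setup. -/
structure Setup (L₁ L₂ : Subgroup G) (j n : G) : Prop where
  P : Pair L₁ L₂ j
  D₁ : Data L₁ j
  D₂ : Data L₂ j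
  E₁ : Cent L₁ j
  E₂ : Cent L₂ j
  nn : n * n = j
  n₁ : ∀ x ∈ L₁, n * x * n⁻¹ ∈ L₂
  n₂ : ∀ x ∈ L₂, n * x * n⁻¹ ∈ L₁
  nM : n ∉ L₁ ⊔ L₂
  cover : ∀ x, x * j = j * x → x ∈ L₁ ⊔ L₂ ∨ n⁻¹ * x ∈ L₁ ⊔ L₂

variable {L₁ L₂ : Subgroup G} {j n : G}

theorem Setup.j₁c (S : Setup L₁ L₂ j n) {x : G} (hx : x ∈ L₁) : x * j = j * x := S.P.comm x hx j S.P.j₂

theorem Setup.j₂c (S : Setup L₁ L₂ j n) {x : G} (hx : x ∈ L₂) : x * j = j * x := (S.P.comm j S.P.j₁ x hx).symm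

theorem Setup.jinv (S : Setup L₁ L₂ j n) : j⁻¹ = j := by
  rw [inv_eq_iff_mul_eq_one]; exact S.P.jj

theorem Setup.nj (S : Setup L₁ L₂ j n) : n * j = j * n := by
  rw [← S.nn]; group

theorem Setup.ninvj (S : Setup L₁ L₂ j n) : n * j * n⁻¹ = j := by
  rw [S.nj]; group

theorem Setup.ββ (S : Setup L₁ L₂ j n) {x : G} (hx : x * j = j * x) : n * (n * x * n⁻¹) * n⁻¹ = x := by
  have h1 : n * (n * x * n⁻¹) * n⁻¹ = (n * n) * x * (n * n)⁻¹ := by group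
  rw [h1, S.nn, ← hx]
  group

theorem Setup.sq_n (S : Setup L₁ L₂ j n) (a : G) : (n * a) * (n * a) = (n * a * n⁻¹) * j * a := by
  rw [← S.nn]; group

theorem Setup.j_ne (S : Setup L₁ L₂ j n) : j ≠ 1 := S.P.j1

theorem Setup.β_one_or_j (S : Setup L₁ L₂ j n) {e : G} (he : e = 1 ∨ e = j) : n * e * n⁻¹ = e := by
  rcases he with rfl | rfl
  · group
  · exact S.ninvj

/-- No element of the outer coset is an involution. -/
theorem Setup.no_inv (S : Setup L₁ L₂ j n) {a b : G} (ha : a ∈ L₁) (hb : b ∈ L₂) :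
    (n * (a * b)) * (n * (a * b)) ≠ 1 := by
  intro h
  set p := n * a * n⁻¹ with hp
  set q := n * b * n⁻¹ with hq
  have hpL : p ∈ L₂ := S.n₁ a ha
  have hqL : q ∈ L₁ := S.n₂ b hb
  have h1 : (n * (a * b)) * (n * (a * b)) = j * (q * a) * (p * b) := by
    rw [S.sq_n]
    have e1 : n * (a * b) * n⁻¹ = p * q := by rw [hp, hq]; group
    rw [e1]
    calc p * q * j * (a * b) = p * (q * j) * a * b := by group
      _ = p * (j * q) * a * b := by rw [S.j₁c hqL]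
      _ = (p * j) * q * a * b := by group
      _ = (j * p) * q * a * b := by rw [S.j₂c hpL]
      _ = j * (p * (q * a)) * b := by group
      _ = j * ((q * a) * p) * b := by rw [(S.P.comm _ (L₁.mul_mem hqL ha) p hpL).symm]
      _ = j * (q * a) * (p * b) := by group
  rw [h1] at h
  set α := q * a with hα
  set α' := p * b with hα'
  have hαL : α ∈ L₁ := L₁.mul_mem hqL ha
  have hα'L : α' ∈ L₂ := L₂.mul_mem hpL hb
  have h2 : α' = (j * α)⁻¹ := eq_inv_of_mul_eq_one_right h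
  have h3 : α' ∈ L₁ := by rw [h2]; exact L₁.inv_mem (L₁.mul_mem S.P.j₁ hαL)
  have h4 := S.P.inf α' h3 hα'L
  have h5 : α = j * α' := by
    have h6 : j * α = α'⁻¹ := by rw [h2]; group
    have h7 : α'⁻¹ = α' := by
      rcases h4 with h8 | h8
      · rw [h8]; group
      · rw [h8, S.jinv]
    calc α = j⁻¹ * (j * α) := by group
      _ = j * α' := by rw [h6, h7, S.jinv]
  have h6 : n * α * n⁻¹ = b * p := by
    have h7 : n * q * n⁻¹ = b := S.ββ (S.j₂c hb)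
    calc n * α * n⁻¹ = (n * q * n⁻¹) * (n * a * n⁻¹) := by rw [hα]; group
      _ = b * p := by rw [h7]
  have h7 : b * p = α' := by
    have h8 : b * α' = α' * b := by
      rcases h4 with h9 | h9
      · rw [h9]; group
      · rw [h9]; exact S.j₂c hb
    calc b * p = (b * (p * b)) * b⁻¹ := by group
      _ = (b * α') * b⁻¹ := by rw [hα']
      _ = α' * b * b⁻¹ := by rw [h8]
      _ = α' := by group
  have h8 : α = 1 ∨ α = j := by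
    rcases h4 with h9 | h9
    · right; rw [h5, h9, mul_one]
    · left; rw [h5, h9]; exact S.P.jj
  have h9 : α = α' := by
    rw [← h7, ← h6]
    exact (S.β_one_or_j h8).symm
  apply S.j_ne
  have h10 : α * α = 1 := by
    rcases h8 with h11 | h11
    · rw [h11, one_mul]
    · rw [h11]; exact S.P.jj
  rw [← h9] at h
  calc j = j * (α * α) := by rw [h10, mul_one]
    _ = j * α * α := by group
    _ = 1 := h

/-- The data once `u = t₁ t₂` is fixed and `n` is normalized. -/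
structure Std (L₁ L₂ : Subgroup G) (j n t₁ t₂ w₁ : G) : Prop where
  S : Setup L₁ L₂ j n
  ht₁ : t₁ ∈ L₁
  ht₂ : t₂ ∈ L₂
  h1 : t₁ * t₁ = j
  h2 : t₂ * t₂ = j
  hnt : n * t₁ * n⁻¹ = t₂
  hw₁ : w₁ ∈ L₁
  hwt : w₁ * t₁ * w₁⁻¹ = t₁⁻¹

variable {t₁ t₂ w₁ : G}

theorem sq_w {L : Subgroup G} (D : Data L j) (E : Cent L j) (hj1 : j ≠ 1) {t w : G} (ht : t ∈ L) (h1 : t * t = j) (hw : w ∈ L)
    (hwt : w * t * w⁻¹ = t⁻¹) : w * w = j := by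
  have h2 : (w * w) * t = t * (w * w) := by
    have h3 : w * t = t⁻¹ * w := by
      calc w * t = (w * t * w⁻¹) * w := by group
        _ = t⁻¹ * w := by rw [hwt]
    have h4 : w * t⁻¹ = t * w := by
      have h5 : w * t⁻¹ * w⁻¹ = t := by
        have : (w * t * w⁻¹)⁻¹ = w * t⁻¹ * w⁻¹ := by group
        rw [← this, hwt, inv_inv]
      calc w * t⁻¹ = (w * t⁻¹ * w⁻¹) * w := by group
        _ = t * w := by rw [h5]
    calc (w * w) * t = w * (w * t) := by group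
      _ = w * (t⁻¹ * w) := by rw [h3]
      _ = (w * t⁻¹) * w := by group
      _ = (t * w) * w := by rw [h4]
      _ = t * (w * w) := by group
  have h3 := E.invert t ht h1 w hw (w * w) (L.mul_mem hw hw) hwt h2
  have h4 : (w * w) * (w * w) = 1 := by
    have h5 : w * (w * w) * w⁻¹ = w * w := by group
    rw [h5] at h3
    calc (w * w) * (w * w) = (w * w) * (w * w)⁻¹ := by rw [← h3]
      _ = 1 := by group
  rcases D.sq_one _ (L.mul_mem hw hw) h4 with h5 | h5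
  · exfalso
    apply hj1
    rcases D.sq_one _ hw h5 with h6 | h6
    · rw [h6] at hwt
      have h7 : t = t⁻¹ := by simpa using hwt
      rw [← h1]
      calc t * t = t⁻¹ * t := by rw [← h7]
        _ = 1 := by group
    · rw [h6] at hwt
      have hjt : j * t = t * j := by rw [← h1]; group
      have h7 : t = t⁻¹ := by
        calc t = j * t * j⁻¹ := by rw [hjt]; group
          _ = t⁻¹ := hwt
      rw [← h1]
      calc t * t = t⁻¹ * t := by rw [← h7]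
        _ = 1 := by group
  · exact h5

namespace Std

variable (T : Std L₁ L₂ j n t₁ t₂ w₁)

include T

theorem nt₂ : n * t₂ * n⁻¹ = t₁ := by
  rw [← T.hnt]
  exact T.S.ββ (T.S.j₁c T.ht₁)

theorem comm₁₂ : t₁ * t₂ = t₂ * t₁ := T.S.P.comm _ T.ht₁ _ T.ht₂

theorem t₁j : t₁ * j = j * t₁ := T.S.j₁c T.ht₁

theorem t₂j : t₂ * j = j * t₂ := T.S.j₂c T.ht₂

theorem t₁inv : t₁⁻¹ = t₁ * j := by
  rw [inv_eq_iff_mul_eq_one, ← mul_assoc, T.h1]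
  exact T.S.P.jj

theorem t₂inv : t₂⁻¹ = t₂ * j := by
  rw [inv_eq_iff_mul_eq_one, ← mul_assoc, T.h2]
  exact T.S.P.jj

theorem t₁L₂ (hh : t₁ ∈ L₂) : False := by
  apply T.S.j_ne
  have h := T.S.P.inf t₁ T.ht₁ hh
  rw [← T.h1]
  rcases h with h | h
  · rw [h, one_mul]
  · rw [h]; exact T.S.P.jj

/-- Images under `n` of the centralizer of `t₁`. -/
theorem p_comm {a : G} (hat : a * t₁ = t₁ * a) : (n * a * n⁻¹) * t₂ = t₂ * (n * a * n⁻¹) := by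
  rw [← T.hnt]
  calc (n * a * n⁻¹) * (n * t₁ * n⁻¹) = n * (a * t₁) * n⁻¹ := by group
    _ = n * (t₁ * a) * n⁻¹ := by rw [hat]
    _ = (n * t₁ * n⁻¹) * (n * a * n⁻¹) := by group

theorem q_comm {b : G} (hbt : b * t₂ = t₂ * b) : (n * b * n⁻¹) * t₁ = t₁ * (n * b * n⁻¹) := by
  rw [← T.nt₂]
  calc (n * b * n⁻¹) * (n * t₂ * n⁻¹) = n * (b * t₂) * n⁻¹ := by group
    _ = n * (t₂ * b) * n⁻¹ := by rw [hbt]
    _ = (n * t₂ * n⁻¹) * (n * b * n⁻¹) := by group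

/-- The square of `n a b` is never `t₁ t₂`. -/
theorem sq_W {a b : G} (ha : a ∈ L₁) (hb : b ∈ L₂) (hat : a * t₁ = t₁ * a) (hbt : b * t₂ = t₂ * b) :
    (n * (a * b)) * (n * (a * b)) ≠ t₁ * t₂ := by
  intro h
  have S := T.S
  set p := n * a * n⁻¹ with hp
  set q := n * b * n⁻¹ with hq
  have hpL : p ∈ L₂ := S.n₁ a ha
  have hqL : q ∈ L₁ := S.n₂ b hb
  have hpt : p * t₂ = t₂ * p := T.p_comm hat
  have hqt : q * t₁ = t₁ * q := T.q_comm hbt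
  have hpb : p * b = b * p := S.E₂.comm t₂ T.ht₂ T.h2 p hpL b hb hpt hbt
  have h1 : (n * (a * b)) * (n * (a * b)) = j * (q * a) * (p * b) := by
    rw [S.sq_n]
    have e1 : n * (a * b) * n⁻¹ = p * q := by rw [hp, hq]; group
    rw [e1]
    calc p * q * j * (a * b) = p * (q * j) * a * b := by group
      _ = p * (j * q) * a * b := by rw [S.j₁c hqL]
      _ = (p * j) * q * a * b := by group
      _ = (j * p) * q * a * b := by rw [S.j₂c hpL]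
      _ = j * (p * (q * a)) * b := by group
      _ = j * ((q * a) * p) * b := by rw [(S.P.comm _ (L₁.mul_mem hqL ha) p hpL).symm]
      _ = j * (q * a) * (p * b) := by group
  rw [h1] at h
  set α := q * a with hα
  set α' := p * b with hα'
  have hαL : α ∈ L₁ := L₁.mul_mem hqL ha
  have hα'L : α' ∈ L₂ := L₂.mul_mem hpL hb
  -- the element `ε`
  have e1 : t₁⁻¹ * j * α = t₂ * α'⁻¹ := by
    have : t₁⁻¹ * (j * α * α') * α'⁻¹ = t₁⁻¹ * (t₁ * t₂) * α'⁻¹ := by rw [h]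
    calc t₁⁻¹ * j * α = t₁⁻¹ * (j * α * α') * α'⁻¹ := by group
      _ = t₁⁻¹ * (t₁ * t₂) * α'⁻¹ := this
      _ = t₂ * α'⁻¹ := by group
  set ε := t₁⁻¹ * j * α with hε
  have hεL₁ : ε ∈ L₁ := L₁.mul_mem (L₁.mul_mem (L₁.inv_mem T.ht₁) S.P.j₁) hαL
  have hεL₂ : ε ∈ L₂ := by rw [e1]; exact L₂.mul_mem T.ht₂ (L₂.inv_mem hα'L)
  have hεc := S.P.inf ε hεL₁ hεL₂
  have hα₁ : α = j * (t₁ * ε) := by
    have e2 : t₁ * ε = j * α := by rw [hε]; group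
    rw [e2, ← mul_assoc, S.P.jj, one_mul]
  have hα'₁ : α' = ε⁻¹ * t₂ := by
    rw [e1]; group
  have h6 : n * α * n⁻¹ = b * p := by
    have h7 : n * q * n⁻¹ = b := S.ββ (S.j₂c hb)
    calc n * α * n⁻¹ = (n * q * n⁻¹) * (n * a * n⁻¹) := by rw [hα]; group
      _ = b * p := by rw [h7]
  have h7 : n * α * n⁻¹ = j * (t₂ * ε) := by
    rw [hα₁]
    calc n * (j * (t₁ * ε)) * n⁻¹ = (n * j * n⁻¹) * ((n * t₁ * n⁻¹) * (n * ε * n⁻¹)) := by group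
      _ = j * (t₂ * ε) := by rw [S.ninvj, T.hnt, S.β_one_or_j hεc]
  have h8 : j * (t₂ * ε) = ε⁻¹ * t₂ := by
    rw [← h7, h6, ← hpb]
    exact hα'₁
  apply S.j_ne
  rcases hεc with h9 | h9
  · rw [h9] at h8
    have : j * t₂ = 1 * t₂ := by simpa using h8
    exact mul_right_cancel this
  · rw [h9, S.jinv] at h8
    have h10 : t₂ * j = t₂ * 1 := by
      rw [mul_one]
      exact mul_left_cancel h8
    exact mul_left_cancel h10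

theorem w₂mem : n * w₁ * n⁻¹ ∈ L₂ := T.S.n₁ _ T.hw₁

theorem w₂t : (n * w₁ * n⁻¹) * t₂ * (n * w₁ * n⁻¹)⁻¹ = t₂⁻¹ := by
  rw [← T.hnt]
  calc (n * w₁ * n⁻¹) * (n * t₁ * n⁻¹) * (n * w₁ * n⁻¹)⁻¹ = n * (w₁ * t₁ * w₁⁻¹) * n⁻¹ := by group
    _ = n * t₁⁻¹ * n⁻¹ := by rw [T.hwt]
    _ = (n * t₁ * n⁻¹)⁻¹ := by group

theorem w₁sq : w₁ * w₁ = j := sq_w T.S.D₁ T.S.E₁ T.S.j_ne T.ht₁ T.h1 T.hw₁ T.hwt

theorem w₂sq : (n * w₁ * n⁻¹) * (n * w₁ * n⁻¹) = j := by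
  calc (n * w₁ * n⁻¹) * (n * w₁ * n⁻¹) = n * (w₁ * w₁) * n⁻¹ := by group
    _ = j := by rw [T.w₁sq]; exact T.S.ninvj

omit T in
/-- The element `ζ = w₁ w₂`. -/
def zeta (n w₁ : G) : G := w₁ * (n * w₁ * n⁻¹)

theorem ζsq : zeta n w₁ * zeta n w₁ = 1 := by
  unfold zeta
  rw [T.S.P.sq T.hw₁ T.w₂mem, T.w₁sq, T.w₂sq]
  exact T.S.P.jj

theorem ζinv : (zeta n w₁)⁻¹ = zeta n w₁ := by
  rw [inv_eq_iff_mul_eq_one]; exact T.ζsq

theorem ζn : n * zeta n w₁ * n⁻¹ = zeta n w₁ := by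
  unfold zeta
  have h1 : n * (n * w₁ * n⁻¹) * n⁻¹ = w₁ := T.S.ββ (T.S.j₁c T.hw₁)
  calc n * (w₁ * (n * w₁ * n⁻¹)) * n⁻¹ = (n * w₁ * n⁻¹) * (n * (n * w₁ * n⁻¹) * n⁻¹) := by group
    _ = (n * w₁ * n⁻¹) * w₁ := by rw [h1]
    _ = w₁ * (n * w₁ * n⁻¹) := (T.S.P.comm _ T.hw₁ _ T.w₂mem).symm

theorem ζj : zeta n w₁ * j = j * zeta n w₁ := by
  unfold zeta
  calc w₁ * (n * w₁ * n⁻¹) * j = w₁ * ((n * w₁ * n⁻¹) * j) := by group
    _ = w₁ * (j * (n * w₁ * n⁻¹)) := by rw [T.S.j₂c T.w₂mem]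
    _ = (w₁ * j) * (n * w₁ * n⁻¹) := by group
    _ = (j * w₁) * (n * w₁ * n⁻¹) := by rw [T.S.j₁c T.hw₁]
    _ = j * (w₁ * (n * w₁ * n⁻¹)) := by group

theorem ζ_a {a : G} (ha : a ∈ L₁) (hat : a * t₁ = t₁ * a) : zeta n w₁ * a * (zeta n w₁)⁻¹ = a⁻¹ := by
  have h1 := T.S.E₁.invert t₁ T.ht₁ T.h1 w₁ T.hw₁ a ha T.hwt hat
  have h2 : (n * w₁ * n⁻¹) * a = a * (n * w₁ * n⁻¹) := (T.S.P.comm a ha _ T.w₂mem).symm
  unfold zeta
  calc w₁ * (n * w₁ * n⁻¹) * a * (w₁ * (n * w₁ * n⁻¹))⁻¹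
      = w₁ * ((n * w₁ * n⁻¹) * a) * (n * w₁ * n⁻¹)⁻¹ * w₁⁻¹ := by group
    _ = w₁ * (a * (n * w₁ * n⁻¹)) * (n * w₁ * n⁻¹)⁻¹ * w₁⁻¹ := by rw [h2]
    _ = w₁ * a * w₁⁻¹ := by group
    _ = a⁻¹ := h1

theorem ζ_b {b : G} (hb : b ∈ L₂) (hbt : b * t₂ = t₂ * b) : zeta n w₁ * b * (zeta n w₁)⁻¹ = b⁻¹ := by
  have h1 := T.S.E₂.invert t₂ T.ht₂ T.h2 _ T.w₂mem b hb T.w₂t hbt
  have h2 : w₁ * b⁻¹ = b⁻¹ * w₁ := T.S.P.comm w₁ T.hw₁ _ (L₂.inv_mem hb)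
  unfold zeta
  calc w₁ * (n * w₁ * n⁻¹) * b * (w₁ * (n * w₁ * n⁻¹))⁻¹
      = w₁ * ((n * w₁ * n⁻¹) * b * (n * w₁ * n⁻¹)⁻¹) * w₁⁻¹ := by group
    _ = w₁ * b⁻¹ * w₁⁻¹ := by rw [h1]
    _ = b⁻¹ * w₁ * w₁⁻¹ := by rw [h2]
    _ = b⁻¹ := by group

theorem ζ_ab {a b : G} (ha : a ∈ L₁) (hb : b ∈ L₂) (hat : a * t₁ = t₁ * a) (hbt : b * t₂ = t₂ * b) :
    zeta n w₁ * (a * b) * zeta n w₁ = (a * b)⁻¹ := by
  have h1 := T.ζ_a ha hat
  have h2 := T.ζ_b hb hbt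
  rw [T.ζinv] at h1 h2
  have h3 : a⁻¹ * b⁻¹ = b⁻¹ * a⁻¹ := T.S.P.comm _ (L₁.inv_mem ha) _ (L₂.inv_mem hb)
  have h4 : (zeta n w₁ * a * zeta n w₁) * (zeta n w₁ * b * zeta n w₁) =
      zeta n w₁ * a * (zeta n w₁ * zeta n w₁) * b * zeta n w₁ := by group
  rw [T.ζsq] at h4
  calc zeta n w₁ * (a * b) * zeta n w₁ = zeta n w₁ * a * 1 * b * zeta n w₁ := by group
    _ = (zeta n w₁ * a * zeta n w₁) * (zeta n w₁ * b * zeta n w₁) := h4.symm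
    _ = a⁻¹ * b⁻¹ := by rw [h1, h2]
    _ = b⁻¹ * a⁻¹ := h3
    _ = (a * b)⁻¹ := by group

/-- `ζ` times an element of `W` is an involution. -/
theorem ζ_sq_form {a b : G} (ha : a ∈ L₁) (hb : b ∈ L₂) (hat : a * t₁ = t₁ * a) (hbt : b * t₂ = t₂ * b) :
    (zeta n w₁ * (a * b)) * (zeta n w₁ * (a * b)) = 1 := by
  have h := T.ζ_ab ha hb hat hbt
  calc (zeta n w₁ * (a * b)) * (zeta n w₁ * (a * b)) = (zeta n w₁ * (a * b) * zeta n w₁) * (a * b) := by group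
    _ = (a * b)⁻¹ * (a * b) := by rw [h]
    _ = 1 := by group

/-- The square of `n ζ a b` is never `j t₁ t₂`. -/
theorem sq_ζW {a b : G} (ha : a ∈ L₁) (hb : b ∈ L₂) (hat : a * t₁ = t₁ * a) (hbt : b * t₂ = t₂ * b) :
    (n * (zeta n w₁ * (a * b))) * (n * (zeta n w₁ * (a * b))) ≠ j * (t₁ * t₂) := by
  intro h
  have S := T.S
  set p := n * a * n⁻¹ with hp
  set q := n * b * n⁻¹ with hq
  have hpL : p ∈ L₂ := S.n₁ a ha
  have hqL : q ∈ L₁ := S.n₂ b hb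
  have hpt : p * t₂ = t₂ * p := T.p_comm hat
  have hqt : q * t₁ = t₁ * q := T.q_comm hbt
  have hqp : q * p = p * q := S.P.comm q hqL p hpL
  have hz := T.ζ_ab hqL hpL hqt hpt
  set ζ := zeta n w₁ with hζ
  have h1 : (n * (ζ * (a * b))) * (n * (ζ * (a * b))) = j * (q⁻¹ * a) * (p⁻¹ * b) := by
    rw [S.sq_n]
    have e1 : n * (ζ * (a * b)) * n⁻¹ = ζ * (q * p) := by
      rw [hqp, hp, hq]
      calc n * (ζ * (a * b)) * n⁻¹ = (n * ζ * n⁻¹) * ((n * a * n⁻¹) * (n * b * n⁻¹)) := by group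
        _ = ζ * ((n * a * n⁻¹) * (n * b * n⁻¹)) := by rw [T.ζn]
    rw [e1]
    have e2 : p⁻¹ * (q⁻¹ * a) = (q⁻¹ * a) * p⁻¹ :=
      (S.P.comm _ (L₁.mul_mem (L₁.inv_mem hqL) ha) _ (L₂.inv_mem hpL)).symm
    calc ζ * (q * p) * j * (ζ * (a * b)) = ζ * (q * p) * (j * ζ) * (a * b) := by group
      _ = ζ * (q * p) * (ζ * j) * (a * b) := by rw [T.ζj]
      _ = (ζ * (q * p) * ζ) * j * (a * b) := by group
      _ = (q * p)⁻¹ * j * (a * b) := by rw [hz]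
      _ = p⁻¹ * q⁻¹ * j * (a * b) := by group
      _ = p⁻¹ * (q⁻¹ * j) * (a * b) := by group
      _ = p⁻¹ * (j * q⁻¹) * (a * b) := by rw [S.j₁c (L₁.inv_mem hqL)]
      _ = (p⁻¹ * j) * (q⁻¹ * a) * b := by group
      _ = (j * p⁻¹) * (q⁻¹ * a) * b := by rw [S.j₂c (L₂.inv_mem hpL)]
      _ = j * (p⁻¹ * (q⁻¹ * a)) * b := by group
      _ = j * ((q⁻¹ * a) * p⁻¹) * b := by rw [e2]
      _ = j * (q⁻¹ * a) * (p⁻¹ * b) := by group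
  rw [h1] at h
  set α := q⁻¹ * a with hα
  set α' := p⁻¹ * b with hα'
  have hαL : α ∈ L₁ := L₁.mul_mem (L₁.inv_mem hqL) ha
  have hα'L : α' ∈ L₂ := L₂.mul_mem (L₂.inv_mem hpL) hb
  have h2 : α * α' = t₁ * t₂ := by
    have : j * (α * α') = j * (t₁ * t₂) := by rw [← h]; group
    exact mul_left_cancel this
  have e1 : t₁⁻¹ * α = t₂ * α'⁻¹ := by
    calc t₁⁻¹ * α = t₁⁻¹ * (α * α') * α'⁻¹ := by group
      _ = t₁⁻¹ * (t₁ * t₂) * α'⁻¹ := by rw [h2]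
      _ = t₂ * α'⁻¹ := by group
  set ε := t₁⁻¹ * α with hε
  have hεL₁ : ε ∈ L₁ := L₁.mul_mem (L₁.inv_mem T.ht₁) hαL
  have hεL₂ : ε ∈ L₂ := by rw [e1]; exact L₂.mul_mem T.ht₂ (L₂.inv_mem hα'L)
  have hεc := S.P.inf ε hεL₁ hεL₂
  have hα₁ : α = t₁ * ε := by rw [hε]; group
  have hα'₁ : α'⁻¹ = t₂⁻¹ * ε := by rw [e1]; group
  have h6 : n * α * n⁻¹ = α'⁻¹ := by
    have h7 : n * q * n⁻¹ = b := S.ββ (S.j₂c hb)
    rw [hα, hα']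
    calc n * (q⁻¹ * a) * n⁻¹ = (n * q * n⁻¹)⁻¹ * (n * a * n⁻¹) := by group
      _ = b⁻¹ * p := by rw [h7]
      _ = (p⁻¹ * b)⁻¹ := by group
  have h7 : n * α * n⁻¹ = t₂ * ε := by
    rw [hα₁]
    calc n * (t₁ * ε) * n⁻¹ = (n * t₁ * n⁻¹) * (n * ε * n⁻¹) := by group
      _ = t₂ * ε := by rw [T.hnt, S.β_one_or_j hεc]
  have h8 : t₂ = t₂⁻¹ := by
    have : t₂ * ε = t₂⁻¹ * ε := by rw [← h7, h6, hα'₁]
    exact mul_right_cancel this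
  apply S.j_ne
  rw [← T.h2]
  calc t₂ * t₂ = t₂⁻¹ * t₂ := by rw [← h8]
    _ = 1 := by group

/-- The membership of `W`. -/
def W (L₁ L₂ : Subgroup G) (t₁ t₂ x : G) : Prop :=
  ∃ a ∈ L₁, ∃ b ∈ L₂, a * t₁ = t₁ * a ∧ b * t₂ = t₂ * b ∧ x = a * b

omit T in
theorem W.mul {x y : G} (S : Setup L₁ L₂ j n) (hx : W L₁ L₂ t₁ t₂ x) (hy : W L₁ L₂ t₁ t₂ y) : W L₁ L₂ t₁ t₂ (x * y) := by
  obtain ⟨a, ha, b, hb, h1, h2, rfl⟩ := hx
  obtain ⟨c, hc, d, hd, h3, h4, rfl⟩ := hy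
  refine ⟨a * c, L₁.mul_mem ha hc, b * d, L₂.mul_mem hb hd, ?_, ?_, ?_⟩
  · rw [mul_assoc, h3, ← mul_assoc, h1, mul_assoc]
  · rw [mul_assoc, h4, ← mul_assoc, h2, mul_assoc]
  · calc a * b * (c * d) = a * (b * c) * d := by group
      _ = a * (c * b) * d := by rw [(S.P.comm c hc b hb).symm]
      _ = a * c * (b * d) := by group

omit T in
theorem W.inv {x : G} (S : Setup L₁ L₂ j n) (hx : W L₁ L₂ t₁ t₂ x) : W L₁ L₂ t₁ t₂ x⁻¹ := by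
  obtain ⟨a, ha, b, hb, h1, h2, rfl⟩ := hx
  refine ⟨a⁻¹, L₁.inv_mem ha, b⁻¹, L₂.inv_mem hb, ?_, ?_, ?_⟩
  · have := (show Commute a t₁ from h1).inv_left
    exact this
  · have := (show Commute b t₂ from h2).inv_left
    exact this
  · rw [mul_inv_rev]
    exact (S.P.comm _ (L₁.inv_mem ha) _ (L₂.inv_mem hb)).symm

/-- `ζ` inverts `W`. -/
theorem W.ζ {x : G} (hx : W L₁ L₂ t₁ t₂ x) : zeta n w₁ * x * zeta n w₁ = x⁻¹ := by
  obtain ⟨a, ha, b, hb, h1, h2, rfl⟩ := hx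
  exact T.ζ_ab ha hb h1 h2

/-- The subgroup `W ∪ ζ W`. -/
def Y (L₁ L₂ : Subgroup G) (n t₁ t₂ w₁ x : G) : Prop :=
  W L₁ L₂ t₁ t₂ x ∨ ∃ y, W L₁ L₂ t₁ t₂ y ∧ x = zeta n w₁ * y

theorem Y.mul {x y : G} (hx : Y L₁ L₂ n t₁ t₂ w₁ x) (hy : Y L₁ L₂ n t₁ t₂ w₁ y) : Y L₁ L₂ n t₁ t₂ w₁ (x * y) := by
  have S := T.S
  rcases hx with hx | ⟨x', hx', rfl⟩ <;> rcases hy with hy | ⟨y', hy', rfl⟩
  · exact Or.inl (W.mul S hx hy)
  · refine Or.inr ⟨x⁻¹ * y', W.mul S (W.inv S hx) hy', ?_⟩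
    have h1 := W.ζ T (W.inv S hx)
    rw [inv_inv] at h1
    calc x * (zeta n w₁ * y') = (zeta n w₁ * x⁻¹ * zeta n w₁) * (zeta n w₁ * y') := by rw [h1]
      _ = zeta n w₁ * x⁻¹ * (zeta n w₁ * zeta n w₁) * y' := by group
      _ = zeta n w₁ * (x⁻¹ * y') := by rw [T.ζsq]; group
  · exact Or.inr ⟨x' * y, W.mul S hx' hy, by group⟩
  · refine Or.inl ?_
    have h1 := W.ζ T hx'
    have h2 : zeta n w₁ * x' * (zeta n w₁ * y') = x'⁻¹ * y' := by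
      calc zeta n w₁ * x' * (zeta n w₁ * y') = (zeta n w₁ * x' * zeta n w₁) * y' := by group
        _ = x'⁻¹ * y' := by rw [h1]
    rw [h2]
    exact W.mul S (W.inv S hx') hy'

theorem Y.mem_sup {x : G} (hx : Y L₁ L₂ n t₁ t₂ w₁ x) : x ∈ L₁ ⊔ L₂ := by
  have hW : ∀ y, W L₁ L₂ t₁ t₂ y → y ∈ L₁ ⊔ L₂ := by
    rintro y ⟨a, ha, b, hb, -, -, rfl⟩
    exact Subgroup.mul_mem_sup ha hb
  rcases hx with hx | ⟨y, hy, rfl⟩
  · exact hW x hx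
  · refine Subgroup.mul_mem _ ?_ (hW y hy)
    exact Subgroup.mul_mem_sup T.hw₁ T.w₂mem

omit T in
theorem inv_conj_comm {w l t : G} (h1 : w * t * w⁻¹ = t⁻¹) (h2 : l * t * l⁻¹ = t⁻¹) :
    (w⁻¹ * l) * t = t * (w⁻¹ * l) := by
  have h3 : l * t = t⁻¹ * l := by
    calc l * t = (l * t * l⁻¹) * l := by group
      _ = t⁻¹ * l := by rw [h2]
  have h4 : w⁻¹ * t⁻¹ * w = t := by
    calc w⁻¹ * t⁻¹ * w = w⁻¹ * (w * t * w⁻¹) * w := by rw [h1]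
      _ = t := by group
  calc (w⁻¹ * l) * t = w⁻¹ * (l * t) := by group
    _ = w⁻¹ * (t⁻¹ * l) := by rw [h3]
    _ = (w⁻¹ * t⁻¹ * w) * (w⁻¹ * l) := by group
    _ = t * (w⁻¹ * l) := by rw [h4]

/-- Elements of `L₁ L₂` commuting with `u` lie in `W ∪ ζ W`. -/
theorem M_forms {y : G} (hy : y ∈ L₁ ⊔ L₂) (hyu : y * (t₁ * t₂) = (t₁ * t₂) * y) : Y L₁ L₂ n t₁ t₂ w₁ y := by
  have S := T.S
  obtain ⟨l₁, hl₁, l₂, hl₂, rfl⟩ := S.P.mem_sup hy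
  have e0 : (l₁ * t₁) * (l₂ * t₂) = (t₁ * l₁) * (t₂ * l₂) := by
    calc (l₁ * t₁) * (l₂ * t₂) = l₁ * (t₁ * l₂) * t₂ := by group
      _ = l₁ * (l₂ * t₁) * t₂ := by rw [S.P.comm t₁ T.ht₁ l₂ hl₂]
      _ = l₁ * l₂ * (t₁ * t₂) := by group
      _ = t₁ * t₂ * (l₁ * l₂) := hyu
      _ = t₁ * (t₂ * l₁) * l₂ := by group
      _ = t₁ * (l₁ * t₂) * l₂ := by rw [(S.P.comm l₁ hl₁ t₂ T.ht₂).symm]
      _ = (t₁ * l₁) * (t₂ * l₂) := by group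
  have e1 : (t₁ * l₁)⁻¹ * (l₁ * t₁) = (t₂ * l₂) * (l₂ * t₂)⁻¹ := by
    calc (t₁ * l₁)⁻¹ * (l₁ * t₁) = (t₁ * l₁)⁻¹ * ((l₁ * t₁) * (l₂ * t₂)) * (l₂ * t₂)⁻¹ := by group
      _ = (t₁ * l₁)⁻¹ * ((t₁ * l₁) * (t₂ * l₂)) * (l₂ * t₂)⁻¹ := by rw [e0]
      _ = (t₂ * l₂) * (l₂ * t₂)⁻¹ := by group
  have hεL₁ : (t₁ * l₁)⁻¹ * (l₁ * t₁) ∈ L₁ :=
    L₁.mul_mem (L₁.inv_mem (L₁.mul_mem T.ht₁ hl₁)) (L₁.mul_mem hl₁ T.ht₁)
  have hεL₂ : (t₁ * l₁)⁻¹ * (l₁ * t₁) ∈ L₂ := by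
    rw [e1]; exact L₂.mul_mem (L₂.mul_mem T.ht₂ hl₂) (L₂.inv_mem (L₂.mul_mem hl₂ T.ht₂))
  rcases S.P.inf _ hεL₁ hεL₂ with h | h
  · left
    have h1 : l₁ * t₁ = t₁ * l₁ := by
      rw [inv_mul_eq_one] at h
      exact h.symm
    have h2 : l₂ * t₂ = t₂ * l₂ := by
      rw [e1, mul_inv_eq_one] at h
      exact h.symm
    exact ⟨l₁, hl₁, l₂, hl₂, h1, h2, rfl⟩
  · right
    have h1 : l₁ * t₁ = t₁ * l₁ * j := by
      calc l₁ * t₁ = (t₁ * l₁) * ((t₁ * l₁)⁻¹ * (l₁ * t₁)) := by group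
        _ = t₁ * l₁ * j := by rw [h]
    have h2 : t₂ * l₂ = j * (l₂ * t₂) := by
      rw [e1] at h
      calc t₂ * l₂ = ((t₂ * l₂) * (l₂ * t₂)⁻¹) * (l₂ * t₂) := by group
        _ = j * (l₂ * t₂) := by rw [h]
    have i1 : l₁ * t₁ * l₁⁻¹ = t₁⁻¹ := by
      rw [T.t₁inv]
      calc l₁ * t₁ * l₁⁻¹ = t₁ * (l₁ * j) * l₁⁻¹ := by rw [h1]; group
        _ = t₁ * (j * l₁) * l₁⁻¹ := by rw [S.j₁c hl₁]
        _ = t₁ * j := by group
    have i2 : l₂ * t₂ * l₂⁻¹ = t₂⁻¹ := by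
      rw [T.t₂inv]
      have h3 : l₂ * t₂ = j * (t₂ * l₂) := by
        rw [h2, ← mul_assoc, S.P.jj, one_mul]
      calc l₂ * t₂ * l₂⁻¹ = j * (t₂ * l₂) * l₂⁻¹ := by rw [h3]
        _ = j * t₂ := by group
        _ = t₂ * j := (S.j₂c T.ht₂).symm
    refine ⟨w₁⁻¹ * l₁ * ((n * w₁ * n⁻¹)⁻¹ * l₂), ⟨w₁⁻¹ * l₁, L₁.mul_mem (L₁.inv_mem T.hw₁) hl₁,
      (n * w₁ * n⁻¹)⁻¹ * l₂, L₂.mul_mem (L₂.inv_mem T.w₂mem) hl₂, inv_conj_comm T.hwt i1,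
      inv_conj_comm T.w₂t i2, rfl⟩, ?_⟩
    unfold zeta
    have h3 : (n * w₁ * n⁻¹) * (w₁⁻¹ * l₁) = (w₁⁻¹ * l₁) * (n * w₁ * n⁻¹) :=
      (S.P.comm _ (L₁.mul_mem (L₁.inv_mem T.hw₁) hl₁) _ T.w₂mem).symm
    calc l₁ * l₂ = w₁ * (w₁⁻¹ * l₁) * ((n * w₁ * n⁻¹) * ((n * w₁ * n⁻¹)⁻¹ * l₂)) := by group
      _ = w₁ * ((w₁⁻¹ * l₁) * (n * w₁ * n⁻¹)) * ((n * w₁ * n⁻¹)⁻¹ * l₂) := by group
      _ = w₁ * ((n * w₁ * n⁻¹) * (w₁⁻¹ * l₁)) * ((n * w₁ * n⁻¹)⁻¹ * l₂) := by rw [h3]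
      _ = _ := by group

theorem n_comm_u : n * (t₁ * t₂) = (t₁ * t₂) * n := by
  have h1 : n * (t₁ * t₂) * n⁻¹ = t₁ * t₂ := by
    calc n * (t₁ * t₂) * n⁻¹ = (n * t₁ * n⁻¹) * (n * t₂ * n⁻¹) := by group
      _ = t₂ * t₁ := by rw [T.hnt, T.nt₂]
      _ = t₁ * t₂ := T.comm₁₂.symm
  calc n * (t₁ * t₂) = (n * (t₁ * t₂) * n⁻¹) * n := by group
    _ = (t₁ * t₂) * n := by rw [h1]

/-- The centralizer of `j` and `u` as a union of four cosets of `W`. -/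
theorem X_forms {x : G} (hj : x * j = j * x) (hu : x * (t₁ * t₂) = (t₁ * t₂) * x) :
    Y L₁ L₂ n t₁ t₂ w₁ x ∨ ∃ y, Y L₁ L₂ n t₁ t₂ w₁ y ∧ x = n * y := by
  rcases T.S.cover x hj with h | h
  · exact Or.inl (T.M_forms h hu)
  · refine Or.inr ⟨n⁻¹ * x, T.M_forms h ?_, by group⟩
    have h1 := T.n_comm_u
    calc n⁻¹ * x * (t₁ * t₂) = n⁻¹ * (x * (t₁ * t₂)) := by group
      _ = n⁻¹ * ((t₁ * t₂) * x) := by rw [hu]
      _ = n⁻¹ * ((t₁ * t₂) * n) * (n⁻¹ * x) := by group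
      _ = n⁻¹ * (n * (t₁ * t₂)) * (n⁻¹ * x) := by rw [h1]
      _ = (t₁ * t₂) * (n⁻¹ * x) := by group

theorem no_inv_n {y : G} (hy : Y L₁ L₂ n t₁ t₂ w₁ y) : (n * y) * (n * y) ≠ 1 := by
  obtain ⟨a, ha, b, hb, rfl⟩ := T.S.P.mem_sup (Y.mem_sup T hy)
  exact T.S.no_inv ha hb

/-- The involutions in the centralizer of `j` and `u` lie in `Y`. -/
theorem inv_Y {x : G} (hj : x * j = j * x) (hu : x * (t₁ * t₂) = (t₁ * t₂) * x) (h : x * x = 1) :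
    Y L₁ L₂ n t₁ t₂ w₁ x := by
  rcases T.X_forms hj hu with h1 | ⟨y, hy, rfl⟩
  · exact h1
  · exact absurd h (T.no_inv_n hy)

/-- The main contradiction. -/
theorem no_swap {g : G} (hg1 : g * j * g⁻¹ = t₁ * t₂) (hg2 : g * (t₁ * t₂) * g⁻¹ = j) : False := by
  have S := T.S
  set u := t₁ * t₂ with hu
  have hσ : ∀ x y : G, (g * x * g⁻¹) * (g * y * g⁻¹) = g * (x * y) * g⁻¹ := by intro x y; group
  have hX : ∀ x : G, x * j = j * x → x * u = u * x → (g * x * g⁻¹) * j = j * (g * x * g⁻¹) ∧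
      (g * x * g⁻¹) * u = u * (g * x * g⁻¹) := by
    intro x h1 h2
    constructor
    · calc (g * x * g⁻¹) * j = (g * x * g⁻¹) * (g * u * g⁻¹) := by rw [hg2]
        _ = g * (x * u) * g⁻¹ := hσ _ _
        _ = g * (u * x) * g⁻¹ := by rw [h2]
        _ = (g * u * g⁻¹) * (g * x * g⁻¹) := (hσ _ _).symm
        _ = j * (g * x * g⁻¹) := by rw [hg2]
    · calc (g * x * g⁻¹) * u = (g * x * g⁻¹) * (g * j * g⁻¹) := by rw [hg1]
        _ = g * (x * j) * g⁻¹ := hσ _ _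
        _ = g * (j * x) * g⁻¹ := by rw [h1]
        _ = (g * j * g⁻¹) * (g * x * g⁻¹) := (hσ _ _).symm
        _ = u * (g * x * g⁻¹) := by rw [hg1]
  have hg1' : g⁻¹ * u * g = j := by rw [← hg1]; group
  have hg2' : g⁻¹ * j * g = u := by rw [← hg2]; group
  have hσ' : ∀ x y : G, (g⁻¹ * x * g) * (g⁻¹ * y * g) = g⁻¹ * (x * y) * g := by intro x y; group
  have hX' : ∀ x : G, x * j = j * x → x * u = u * x → (g⁻¹ * x * g) * j = j * (g⁻¹ * x * g) ∧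
      (g⁻¹ * x * g) * u = u * (g⁻¹ * x * g) := by
    intro x h1 h2
    constructor
    · calc (g⁻¹ * x * g) * j = (g⁻¹ * x * g) * (g⁻¹ * u * g) := by rw [hg1']
        _ = g⁻¹ * (x * u) * g := hσ' _ _
        _ = g⁻¹ * (u * x) * g := by rw [h2]
        _ = (g⁻¹ * u * g) * (g⁻¹ * x * g) := (hσ' _ _).symm
        _ = j * (g⁻¹ * x * g) := by rw [hg1']
    · calc (g⁻¹ * x * g) * u = (g⁻¹ * x * g) * (g⁻¹ * j * g) := by rw [hg2']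
        _ = g⁻¹ * (x * j) * g := hσ' _ _
        _ = g⁻¹ * (j * x) * g := by rw [h1]
        _ = (g⁻¹ * j * g) * (g⁻¹ * x * g) := (hσ' _ _).symm
        _ = u * (g⁻¹ * x * g) := by rw [hg2']
  have hu1 : u ≠ 1 := by
    rw [← hg1]
    intro h
    apply S.j_ne
    have : j = g⁻¹ * (g * j * g⁻¹) * g := by group
    rw [this, h]; group
  have huu : u * u = 1 := by
    rw [hu, S.P.sq T.ht₁ T.ht₂, T.h1, T.h2]; exact S.P.jj
  have huj : u * j = j * u := by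
    rw [hu]
    calc t₁ * t₂ * j = t₁ * (t₂ * j) := by group
      _ = t₁ * (j * t₂) := by rw [T.t₂j]
      _ = (t₁ * j) * t₂ := by group
      _ = (j * t₁) * t₂ := by rw [T.t₁j]
      _ = j * (t₁ * t₂) := by group
  set ζ := zeta n w₁ with hζ
  -- `ζ` and `ζ t₁` are involutions in the centralizer
  have hζu : ζ * u = u * ζ := by
    have h1 := T.ζ_ab T.ht₁ T.ht₂ rfl rfl
    have h2 : u⁻¹ = u := by rw [inv_eq_iff_mul_eq_one]; exact huu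
    rw [← hu, h2] at h1
    calc ζ * u = (ζ * u * ζ) * ζ⁻¹ := by group
      _ = u * ζ⁻¹ := by rw [h1]
      _ = u * ζ := by rw [T.ζinv]
  have hζj : ζ * j = j * ζ := T.ζj
  have ht₁u : t₁ * u = u * t₁ := by
    rw [hu]
    calc t₁ * (t₁ * t₂) = t₁ * (t₂ * t₁) := by rw [T.comm₁₂]
      _ = (t₁ * t₂) * t₁ := by group
  have hζt₁j : (ζ * t₁) * j = j * (ζ * t₁) := by
    calc (ζ * t₁) * j = ζ * (t₁ * j) := by group
      _ = ζ * (j * t₁) := by rw [T.t₁j]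
      _ = (ζ * j) * t₁ := by group
      _ = (j * ζ) * t₁ := by rw [hζj]
      _ = j * (ζ * t₁) := by group
  have hζt₁u : (ζ * t₁) * u = u * (ζ * t₁) := by
    calc (ζ * t₁) * u = ζ * (t₁ * u) := by group
      _ = ζ * (u * t₁) := by rw [ht₁u]
      _ = (ζ * u) * t₁ := by group
      _ = (u * ζ) * t₁ := by rw [hζu]
      _ = u * (ζ * t₁) := by group
  have ht₁W : W L₁ L₂ t₁ t₂ t₁ := ⟨t₁, T.ht₁, 1, L₂.one_mem, rfl, by group, by group⟩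
  have hζt₁ : (ζ * t₁) * (ζ * t₁) = 1 := by
    have := T.ζ_sq_form T.ht₁ L₂.one_mem rfl (by group : (1 : G) * t₂ = t₂ * 1)
    rwa [mul_one] at this
  have hζζ : ζ * ζ = 1 := T.ζsq
  -- image under conjugation of an involution of `X` lies in `Y`
  have hinv : ∀ x : G, x * j = j * x → x * u = u * x → x * x = 1 →
      Y L₁ L₂ n t₁ t₂ w₁ (g * x * g⁻¹) := by
    intro x h1 h2 h3
    obtain ⟨h4, h5⟩ := hX x h1 h2
    refine T.inv_Y h4 h5 ?_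
    rw [hσ, h3]; group
  have hinv' : ∀ x : G, x * j = j * x → x * u = u * x → x * x = 1 →
      Y L₁ L₂ n t₁ t₂ w₁ (g⁻¹ * x * g) := by
    intro x h1 h2 h3
    obtain ⟨h4, h5⟩ := hX' x h1 h2
    refine T.inv_Y h4 h5 ?_
    rw [hσ', h3]; group
  -- `σ t₁` lies in `W`
  have hσt₁ : W L₁ L₂ t₁ t₂ (g * t₁ * g⁻¹) := by
    have h1 : Y L₁ L₂ n t₁ t₂ w₁ (g * t₁ * g⁻¹) := by
      have h2 := Y.mul T (hinv ζ hζj hζu hζζ) (hinv (ζ * t₁) hζt₁j hζt₁u hζt₁)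
      have h3 : (g * ζ * g⁻¹) * (g * (ζ * t₁) * g⁻¹) = g * t₁ * g⁻¹ := by
        rw [hσ, ← mul_assoc ζ ζ t₁, hζζ, one_mul]
      rwa [h3] at h2
    rcases h1 with h1 | ⟨y, hy, h1⟩
    · exact h1
    · exfalso
      apply hu1
      have h2 : (g * t₁ * g⁻¹) * (g * t₁ * g⁻¹) = u := by
        rw [hσ, T.h1, hg1]
      rw [← h2, h1]
      obtain ⟨a, ha, b, hb, h3, h4, rfl⟩ := hy
      exact T.ζ_sq_form ha hb h3 h4
  -- the element `σ n`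
  have hnj : n * j = j * n := S.nj
  have hnu : n * u = u * n := T.n_comm_u
  obtain ⟨h1, h2⟩ := hX n hnj hnu
  have hsq : (g * n * g⁻¹) * (g * n * g⁻¹) = u := by
    rw [hσ, S.nn, hg1]
  rcases T.X_forms h1 h2 with hf | ⟨y, hy, hf⟩
  · -- `σ n ∈ Y`
    rcases hf with hf | ⟨y, hy, hf⟩
    · -- `σ n ∈ W`: then `n` is a product of two involutions
      have h3 : (ζ * (g * n * g⁻¹)) * j = j * (ζ * (g * n * g⁻¹)) := by
        calc (ζ * (g * n * g⁻¹)) * j = ζ * ((g * n * g⁻¹) * j) := by group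
          _ = ζ * (j * (g * n * g⁻¹)) := by rw [h1]
          _ = (ζ * j) * (g * n * g⁻¹) := by group
          _ = (j * ζ) * (g * n * g⁻¹) := by rw [hζj]
          _ = j * (ζ * (g * n * g⁻¹)) := by group
      have h4 : (ζ * (g * n * g⁻¹)) * u = u * (ζ * (g * n * g⁻¹)) := by
        calc (ζ * (g * n * g⁻¹)) * u = ζ * ((g * n * g⁻¹) * u) := by group
          _ = ζ * (u * (g * n * g⁻¹)) := by rw [h2]
          _ = (ζ * u) * (g * n * g⁻¹) := by group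
          _ = (u * ζ) * (g * n * g⁻¹) := by rw [hζu]
          _ = u * (ζ * (g * n * g⁻¹)) := by group
      have h5 : (ζ * (g * n * g⁻¹)) * (ζ * (g * n * g⁻¹)) = 1 := by
        have := W.ζ T hf
        calc (ζ * (g * n * g⁻¹)) * (ζ * (g * n * g⁻¹)) = (ζ * (g * n * g⁻¹) * ζ) * (g * n * g⁻¹) := by group
          _ = (g * n * g⁻¹)⁻¹ * (g * n * g⁻¹) := by rw [this]
          _ = 1 := by group
      have h6 := Y.mul T (hinv' ζ hζj hζu hζζ) (hinv' _ h3 h4 h5)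
      have h7 : (g⁻¹ * ζ * g) * (g⁻¹ * (ζ * (g * n * g⁻¹)) * g) = n := by
        rw [hσ', ← mul_assoc ζ ζ, hζζ, one_mul]; group
      rw [h7] at h6
      exact S.nM (Y.mem_sup T h6)
    · -- `σ n ∈ ζ W`
      apply hu1
      rw [← hsq, hf]
      obtain ⟨a, ha, b, hb, h3, h4, rfl⟩ := hy
      exact T.ζ_sq_form ha hb h3 h4
  · rcases hy with hy | ⟨y', hy', hf'⟩
    · -- `σ n ∈ n W`
      obtain ⟨a, ha, b, hb, h3, h4, rfl⟩ := hy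
      rw [hf] at hsq
      exact T.sq_W ha hb h3 h4 hsq
    · -- `σ n ∈ n ζ W`
      have e1 : (n * t₁) * (n * t₁) = j * u := by
        rw [S.sq_n, T.hnt, hu]
        calc t₂ * j * t₁ = (t₂ * j) * t₁ := rfl
          _ = (j * t₂) * t₁ := by rw [T.t₂j]
          _ = j * (t₂ * t₁) := by group
          _ = j * (t₁ * t₂) := by rw [T.comm₁₂]
      have e2 : (g * (n * t₁) * g⁻¹) * (g * (n * t₁) * g⁻¹) = j * u := by
        rw [hσ, e1]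
        calc g * (j * u) * g⁻¹ = (g * j * g⁻¹) * (g * u * g⁻¹) := by group
          _ = u * j := by rw [hg1, hg2]
          _ = j * u := huj
      have hW' := W.mul S hy' hσt₁
      obtain ⟨a, ha, b, hb, h3, h4, hab⟩ := hW'
      have e3 : g * (n * t₁) * g⁻¹ = n * (ζ * (a * b)) := by
        rw [← hab]
        calc g * (n * t₁) * g⁻¹ = (g * n * g⁻¹) * (g * t₁ * g⁻¹) := by group
          _ = n * (ζ * y') * (g * t₁ * g⁻¹) := by rw [hf, hf']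
          _ = _ := by group
      rw [e3] at e2
      exact T.sq_ζW ha hb h3 h4 e2

end Std

end Cfsg.Agent.Lib.FWSwap
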