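import Mathlib
import Cfsg.Agent.Lib.Fi23K24
import Cfsg.Agent.Lib.BurnsidePQ
import Cfsg.Agent.TcChain36.Fi23.Main

/-!
# The stabilizer of a mask in the presented `Fi₂₃`

Tools for computing with the setwise stabilizer of a set of transpositions: closures of masks under words (lower bounds
for orbits), closures of sets of fixed points, cells (upper bounds for orbits), the orbit-stabilizer count and the criterion for
being a maximal subgroup.
-/

set_option autoImplicit false
set_option maxRecDepth 1000000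
set_option linter.all false

namespace Cfsg.Agent.Lib.Fi23Mx

open Cfsg.Agent.Lib.OutTree36 Cfsg.Agent.Lib.TcBits Cfsg.Agent.Lib.TcPres Cfsg.Agent.Lib.PresChain36
open Cfsg.Agent.TcData.Fi23.I31671 Cfsg.Agent.TcData.Fi23 Cfsg.Agent.TcChain36.Fi23 Cfsg.Agent.TcChain36.Out.Fi23
open Cfsg.Agent.Lib.Fi23K24 Cfsg.Agent.Lib.CentFix24

/-- The representation as a kit. -/
theorem kit0 : Kit Phi 31671 Lt ap 10 wa HH O2 where
  rep := H
  sq := by
    intro i hi
    rw [hLet i hi]
    exact Cfsg.Agent.TcChain36.Fi23.sq (dec i)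
  hwa := by
    intro w X i hw
    rw [Cfsg.Agent.TcChain36.Out.Fi23.hwa, evL_small w hw]
  closed := O2_closed
  stab := Cfsg.Agent.TcChain36.Fi23.hstab

/-- Forcing a natural number before it is used. -/
noncomputable def frc {α : Type} (x : ℕ) (f : ℕ → α) : α := Nat.rec (f 0) (fun n _ => f (Nat.succ n)) x

theorem frc_eq {α : Type} (x : ℕ) (f : ℕ → α) : frc x f = f x := by
  cases x <;> rfl

/-! ## Words in generators -/

/-- Words from a list of generators. -/
noncomputable def ex (GW : List (List ℕ)) : List ℕ → List ℕ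
  | [] => []
  | j :: l => GW.getD j [] ++ ex GW l

theorem ex_cons (GW : List (List ℕ)) (j : ℕ) (l : List ℕ) : ex GW (j :: l) = GW.getD j [] ++ ex GW l := rfl

theorem ex_append (GW : List (List ℕ)) : ∀ l m : List ℕ, ex GW (l ++ m) = ex GW l ++ ex GW m
  | [], m => rfl
  | j :: l, m => by
    rw [List.cons_append, ex_cons, ex_cons, ex_append GW l m, List.append_assoc]

/-- Acting on a mask by a word in generators. -/
noncomputable def waX (GW : List (List ℕ)) (l : List ℕ) : ℕ → ℕ :=
  List.rec (motive := fun _ => ℕ → ℕ) (fun X => X) (fun j _ ih X => frc (wa (GW.getD j []) X) ih) l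

theorem waX_spec (GW : List (List ℕ)) : ∀ (l : List ℕ) (X i : ℕ),
    (waX GW l X).testBit i = X.testBit (Phi (evL Lt0 (ex GW l)) i)
  | [], X, i => by
    show X.testBit i = X.testBit (Phi 1 i)
    simp
  | j :: l, X, i => by
    show (frc (wa (GW.getD j []) X) (waX GW l)).testBit i = _
    rw [frc_eq, waX_spec GW l, Cfsg.Agent.TcChain36.Out.Fi23.hwa, ex_cons, evL_append, map_mul, Equiv.Perm.mul_apply]

theorem ex_mem {R : Subgroup Gq} {GW : List (List ℕ)} (hGW : ∀ w ∈ GW, evL Lt0 w ∈ R) :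
    ∀ l : List ℕ, evL Lt0 (ex GW l) ∈ R
  | [] => R.one_mem
  | j :: l => by
    rw [ex_cons, evL_append]
    apply R.mul_mem _ (ex_mem hGW l)
    by_cases h : j < GW.length
    · rw [List.getD_eq_getElem _ _ h]
      exact hGW _ (List.getElem_mem h)
    · rw [List.getD_eq_default _ _ (by omega)]
      exact R.one_mem

/-- Acting on a point by a word in generators, the head of the list first. -/
noncomputable def evH (GW : List (List ℕ)) (l : List ℕ) : ℕ → ℕ :=
  List.rec (motive := fun _ => ℕ → ℕ) (fun p => p) (fun j _ ih p => frc (ev ap (GW.getD j []) p) ih) l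

theorem getD_allLt {GW : List (List ℕ)} (hGW : GW.all (allLt 10) = true) (j : ℕ) : allLt 10 (GW.getD j []) = true := by
  by_cases h : j < GW.length
  · rw [List.getD_eq_getElem _ _ h]
    exact List.all_eq_true.mp hGW _ (List.getElem_mem h)
  · rw [List.getD_eq_default _ _ (by omega)]
    rfl

theorem evH_spec {GW : List (List ℕ)} (hGW : GW.all (allLt 10) = true) : ∀ (l : List ℕ) (p : ℕ), p < 31671 →
    evH GW l p = Phi (evL Lt0 (ex GW l.reverse)) p
  | [], p, _ => by
    show p = Phi 1 p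
    simp
  | j :: l, p, hp => by
    show frc (ev ap (GW.getD j []) p) (evH GW l) = _
    rw [frc_eq]
    have h1 : ev ap (GW.getD j []) p = Phi (evL Lt0 (GW.getD j [])) p := by
      rw [← evL_small _ (allLt_spec (getD_allLt hGW j)), H.ev_eq _ hp]
    have h2 : ev ap (GW.getD j []) p < 31671 := H.ev_lt _ hp
    rw [evH_spec hGW l _ h2, List.reverse_cons, ex_append, evL_append, h1, map_mul, Equiv.Perm.mul_apply]
    simp [ex]

/-! ## Reachable points -/

/-- One step of the closure of a mask. -/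
noncomputable def cloStep (GW : List (List ℕ)) (gs : List (List ℕ)) (X : ℕ) : ℕ :=
  List.foldl (fun acc l => Nat.lor acc (waX GW l X)) X gs

/-- The closure of a mask. -/
noncomputable def clo (GW : List (List ℕ)) (gs : List (List ℕ)) (r : ℕ) : ℕ → ℕ :=
  Nat.rec (fun X => X) (fun _ ih X => frc (cloStep GW gs X) ih) r

/-- All points of a mask are reachable from `b`. -/
def Reach (R : Subgroup Gq) (b X : ℕ) : Prop := ∀ i, X.testBit i = true → ∃ t ∈ R, Phi t b = i

theorem reach_waX {R : Subgroup Gq} {b X : ℕ} (h : Reach R b X) {GW : List (List ℕ)} {l : List ℕ}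
    (hw : evL Lt0 (ex GW l) ∈ R) : Reach R b (waX GW l X) := by
  intro i hi
  rw [waX_spec] at hi
  obtain ⟨t, ht, e⟩ := h _ hi
  refine ⟨(evL Lt0 (ex GW l))⁻¹ * t, R.mul_mem (R.inv_mem hw) ht, ?_⟩
  rw [map_mul, Equiv.Perm.mul_apply, e, phi_inv_l]

theorem reach_lor {R : Subgroup Gq} {b X Y : ℕ} (h1 : Reach R b X) (h2 : Reach R b Y) : Reach R b (Nat.lor X Y) := by
  intro i hi
  have h3 : (X ||| Y).testBit i = true := hi
  rw [Nat.testBit_or, Bool.or_eq_true] at h3
  rcases h3 with h3 | h3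
  · exact h1 i h3
  · exact h2 i h3

theorem reach_step {R : Subgroup Gq} {b X : ℕ} {GW gs : List (List ℕ)} (hgs : ∀ l ∈ gs, evL Lt0 (ex GW l) ∈ R) (hX : Reach R b X) :
    Reach R b (cloStep GW gs X) := by
  have key : ∀ (L : List (List ℕ)) (A : ℕ), (∀ l ∈ L, evL Lt0 (ex GW l) ∈ R) → Reach R b A →
      Reach R b (List.foldl (fun acc l => Nat.lor acc (waX GW l X)) A L) := by
    intro L
    induction L with
    | nil => intro A _ hA; exact hA
    | cons a L ih =>
      intro A hl hA
      rw [List.foldl_cons]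
      exact ih _ (fun w hw => hl w (List.mem_cons_of_mem _ hw))
        (reach_lor hA (reach_waX hX (hl a List.mem_cons_self)))
  exact key gs X hgs hX

theorem reach_clo {R : Subgroup Gq} {b : ℕ} {GW gs : List (List ℕ)} (hgs : ∀ l ∈ gs, evL Lt0 (ex GW l) ∈ R) :
    ∀ (r X : ℕ), Reach R b X → Reach R b (clo GW gs r X)
  | 0, X, h => h
  | r + 1, X, h => by
    show Reach R b (frc (cloStep GW gs X) (clo GW gs r))
    rw [frc_eq]
    exact reach_clo hgs r _ (reach_step hgs h)

theorem reach_pow (R : Subgroup Gq) (b : ℕ) : Reach R b (Nat.pow 2 b) := by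
  intro i hi
  have e : Nat.pow 2 b = 2 ^ b := rfl
  rw [e, Nat.testBit_two_pow] at hi
  have : b = i := by simpa using hi
  exact ⟨1, R.one_mem, by simp [this]⟩

/-- The closure of a mask along a tree: one new point at each step. -/
noncomputable def treeRun (GW gs : List (List ℕ)) (st : List (ℕ × ℕ)) : ℕ → ℕ :=
  List.rec (motive := fun _ => ℕ → ℕ) (fun X => X)
    (fun s _ ih X => frc (cond (tb X s.2) (Nat.lor X (Nat.pow 2 (evH GW (gs.getD s.1 []).reverse s.2))) X) ih) st

theorem reach_tree {R : Subgroup Gq} {b : ℕ} (hb : b < 31671) {GW gs : List (List ℕ)} (hGW : GW.all (allLt 10) = true)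
    (hgs : ∀ l ∈ gs, evL Lt0 (ex GW l) ∈ R) :
    ∀ (st : List (ℕ × ℕ)) (X : ℕ), Reach R b X → Reach R b (treeRun GW gs st X)
  | [], X, h => h
  | s :: st, X, h => by
    show Reach R b (frc (cond (tb X s.2) (Nat.lor X (Nat.pow 2 (evH GW (gs.getD s.1 []).reverse s.2))) X) (treeRun GW gs st))
    rw [frc_eq]
    apply reach_tree hb hGW hgs st
    cases h1 : tb X s.2 with
    | false => exact h
    | true =>
      rw [tb_eq] at h1
      obtain ⟨t, ht, e⟩ := h _ h1
      have hp : s.2 < 31671 := by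
        rw [← e]
        exact H.bd t b hb
      have hl : evL Lt0 (ex GW (gs.getD s.1 [])) ∈ R := by
        by_cases hj : s.1 < gs.length
        · rw [List.getD_eq_getElem _ _ hj]
          exact hgs _ (List.getElem_mem hj)
        · rw [List.getD_eq_default _ _ (by omega)]
          exact R.one_mem
      show Reach R b (Nat.lor X (Nat.pow 2 _))
      apply reach_lor h
      intro i hi
      have e2 : ∀ y : ℕ, Nat.pow 2 y = 2 ^ y := fun y => rfl
      rw [e2, Nat.testBit_two_pow] at hi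
      have hi' := of_decide_eq_true hi
      refine ⟨evL Lt0 (ex GW (gs.getD s.1 [])) * t, R.mul_mem hl ht, ?_⟩
      rw [map_mul, Equiv.Perm.mul_apply, e, ← hi', evH_spec hGW _ _ hp, List.reverse_reverse]

/-! ## The stabilizers -/

/-- The elements preserving a mask and fixing the points of a list. -/
def Kn (Um : ℕ) (bs : List ℕ) : Subgroup Gq where
  carrier := {g | InvM Phi g Um ∧ ∀ b ∈ bs, Phi g b = b}
  mul_mem' := by
    rintro g h ⟨h1, h2⟩ ⟨h3, h4⟩
    refine ⟨h1.mul h3, fun b hb => ?_⟩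
    rw [map_mul, Equiv.Perm.mul_apply, h4 b hb, h2 b hb]
  one_mem' := ⟨InvM.one _, fun b _ => by simp⟩
  inv_mem' := by
    rintro g ⟨h1, h2⟩
    refine ⟨h1.inv, fun b hb => ?_⟩
    have := phi_inv_l (Φ := Phi) g b
    rwa [h2 b hb] at this

theorem mem_Kn {Um : ℕ} {bs : List ℕ} {g : Gq} : g ∈ Kn Um bs ↔ InvM Phi g Um ∧ ∀ b ∈ bs, Phi g b = b := Iff.rfl

theorem mem_Kn_cons {Um : ℕ} {bs : List ℕ} {b : ℕ} {g : Gq} : g ∈ Kn Um (b :: bs) ↔ g ∈ Kn Um bs ∧ Phi g b = b := by
  simp only [mem_Kn, List.mem_cons, forall_eq_or_imp]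
  tauto

/-- Orbit and stabilizer. -/
theorem card_orbit_stab {Γ : Type} [Group Γ] [Finite Γ] (Φ : Γ →* Equiv.Perm ℕ) (K K' : Subgroup Γ) (b : ℕ) (S : Set ℕ)
    (hK' : ∀ g, g ∈ K' ↔ g ∈ K ∧ Φ g b = b) (hup : ∀ g ∈ K, Φ g b ∈ S) (hlo : ∀ i ∈ S, ∃ g ∈ K, Φ g b = i) :
    Nat.card K = S.ncard * Nat.card K' := by
  letI : MulAction K ℕ := MulAction.compHom ℕ (Φ.comp K.subtype)
  have hsmul : ∀ (g : K) (p : ℕ), g • p = Φ g.1 p := fun g p => rfl
  have h1 := Subgroup.card_mul_index (MulAction.stabilizer K b)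
  rw [MulAction.index_stabilizer] at h1
  have h2 : MulAction.orbit K b = S := by
    ext i
    constructor
    · rintro ⟨g, rfl⟩
      exact hup g.1 g.2
    · intro hi
      obtain ⟨g, hg, e⟩ := hlo i hi
      exact ⟨⟨g, hg⟩, e⟩
  rw [h2] at h1
  have h3 : Nat.card (MulAction.stabilizer K b) = Nat.card K' := by
    apply Nat.card_congr
    refine
      { toFun := fun x => ⟨x.1.1, (hK' _).2 ⟨x.1.2, x.2⟩⟩
        invFun := fun y => ⟨⟨y.1, ((hK' _).1 y.2).1⟩, ((hK' _).1 y.2).2⟩
        left_inv := fun x => rfl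
        right_inv := fun y => rfl }
  rw [h3] at h1
  rw [← h1, mul_comm]

/-- The number of bits in a dyadic range. -/
noncomputable def cntR (C : ℕ) (d lo : ℕ) : ℕ :=
  Nat.rec (motive := fun _ => ℕ → ℕ) (fun lo => cond (tb C lo) 1 0)
    (fun d ih lo => Nat.add (ih lo) (ih (Nat.add lo (Nat.pow 2 d)))) d lo

theorem cntR_spec (C : ℕ) : ∀ (d lo : ℕ),
    cntR C d lo = ((Finset.Ico lo (lo + 2 ^ d)).filter (fun i => C.testBit i = true)).card := by
  intro d
  induction d with
  | zero =>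
    intro lo
    show cond (tb C lo) 1 0 = _
    have e0 : Finset.Ico lo (lo + 2 ^ 0) = {lo} := by
      ext x
      simp only [pow_zero, Finset.mem_Ico, Finset.mem_singleton]
      omega
    rw [tb_eq, e0, Finset.filter_singleton]
    cases h : C.testBit lo <;> simp
  | succ d ih =>
    intro lo
    show Nat.add (cntR C d lo) (cntR C d (Nat.add lo (Nat.pow 2 d))) = _
    have e1 : Nat.pow 2 d = 2 ^ d := rfl
    have e2 : Nat.add lo (2 ^ d) = lo + 2 ^ d := rfl
    rw [ih, ih, e1, e2]
    have hunion : Finset.Ico lo (lo + 2 ^ (d + 1)) = Finset.Ico lo (lo + 2 ^ d) ∪ Finset.Ico (lo + 2 ^ d) (lo + 2 ^ d + 2 ^ d) := by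
      rw [Finset.Ico_union_Ico_eq_Ico (by omega) (by omega)]
      congr 1
      rw [pow_succ]; omega
    rw [hunion, Finset.filter_union, Finset.card_union_of_disjoint]
    · rfl
    · apply Finset.disjoint_filter_filter
      exact Finset.Ico_disjoint_Ico_consecutive _ _ _

theorem ncard_of_cntR (C : ℕ) (h : ∀ i, C.testBit i = true → i < 2 ^ 15) :
    {i | C.testBit i = true}.ncard = cntR C 15 0 := by
  rw [cntR_spec]
  have : {i | C.testBit i = true} = ↑((Finset.Ico 0 (0 + 2 ^ 15)).filter (fun i => C.testBit i = true)) := by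
    ext i
    simp only [Set.mem_setOf_eq, Finset.coe_filter, Finset.mem_Ico]
    constructor
    · intro hi
      exact ⟨⟨Nat.zero_le _, by simpa using h i hi⟩, hi⟩
    · exact fun hi => hi.2
  rw [this, Set.ncard_coe_finset]

/-- The count of one step. -/
theorem card_step {Um : ℕ} {bs : List ℕ} {b C : ℕ} (hb : b < 31671)
    (hup : ∀ g ∈ Kn Um bs, C.testBit (Phi g b) = true) (hlo : Reach (Kn Um bs) b C) :
    Nat.card (Kn Um bs) = cntR C 15 0 * Nat.card (Kn Um (b :: bs)) := by
  haveI : Finite Gq := Cfsg.Agent.TcChain36.Fi23.upper.2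
  rw [← ncard_of_cntR]
  · exact card_orbit_stab Phi (Kn Um bs) (Kn Um (b :: bs)) b {i | C.testBit i = true} (fun g => mem_Kn_cons) hup hlo
  · intro i hi
    obtain ⟨t, _, rfl⟩ := hlo i hi
    have := H.bd t b hb
    have h3 : (31671 : ℕ) ≤ 2 ^ 15 := by norm_num
    omega

/-! ## Fixed points -/

/-- A word of the transposition of a word. -/
noncomputable def tw (w : List ℕ) : List ℕ := w ++ (defsL.getD 10 []) ++ w.reverse

theorem hzw : allLt 10 (defsL.getD 10 []) = true := by decide +kernel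

theorem evL_tw_small {w : List ℕ} (hw : allLt 10 w = true) : evL Lt (tw w) = evL Lt0 (tw w) := by
  apply evL_small
  intro j hj
  simp only [tw, List.mem_append, List.mem_reverse] at hj
  rcases hj with (hj | hj) | hj
  · exact allLt_spec hw j hj
  · exact allLt_spec hzw j hj
  · exact allLt_spec hw j hj

theorem evL_tw {w : List ℕ} (hw : allLt 10 w = true) : evL Lt0 (tw w) = trq w := by
  rw [← evL_tw_small hw]
  simp only [tw, evL_append, trq]
  rw [kit0.evL_reverse (allLt_spec hw)]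
  have e : evL Lt (defsL.getD 10 []) = Fi23K24.zz := by
    rw [evL_small _ (allLt_spec hzw)]
    exact hiz
  rw [e]

theorem comm_tw (g : Gq) {w : List ℕ} (hw : allLt 10 w = true) (hfix : Phi g (ev ap w 0) = ev ap w 0) :
    Commute g (evL Lt0 (tw w)) := by
  rw [evL_tw hw]
  exact comm_of_fix (trq_pq w) hfix

/-- The fixed points of an element contain a mask. -/
def FixM (g : Gq) (X : ℕ) : Prop := ∀ i, X.testBit i = true → Phi g i = i

theorem commute_apply {g t : Gq} (hc : Commute g t) (i : ℕ) : Phi g (Phi t i) = Phi t (Phi g i) := by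
  have := congrArg (fun z => Phi z i) hc.eq
  simpa using this

theorem fixM_pull {g t : Gq} {X : ℕ} (hc : Commute g t) (hX : FixM g X) (i : ℕ) (hi : X.testBit (Phi t i) = true) :
    Phi g i = i := by
  have h1 := hX _ hi
  rw [commute_apply hc] at h1
  exact (Phi t).injective h1

theorem fixM_lor {g : Gq} {X Y : ℕ} (h1 : FixM g X) (h2 : FixM g Y) : FixM g (Nat.lor X Y) := by
  intro i hi
  have h3 : (X ||| Y).testBit i = true := hi
  rw [Nat.testBit_or, Bool.or_eq_true] at h3
  rcases h3 with h3 | h3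
  · exact h1 i h3
  · exact h2 i h3

/-- The closure of a set of fixed points. -/
noncomputable def runF (ws : List (List ℕ)) : ℕ → ℕ :=
  List.rec (motive := fun _ => ℕ → ℕ) (fun X => X)
    (fun w _ ih X => frc (cond (tb X (ev ap w 0)) (Nat.lor X (wa (tw w) X)) X) ih) ws

theorem fixM_runF (g : Gq) : ∀ (ws : List (List ℕ)) (X : ℕ), (∀ w ∈ ws, allLt 10 w = true) → FixM g X → FixM g (runF ws X)
  | [], X, _, h => h
  | w :: ws, X, hws, h => by
    show FixM g (frc (cond (tb X (ev ap w 0)) (Nat.lor X (wa (tw w) X)) X) (runF ws))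
    rw [frc_eq]
    apply fixM_runF g ws _ (fun u hu => hws u (List.mem_cons_of_mem _ hu))
    cases h1 : tb X (ev ap w 0) with
    | false => exact h
    | true =>
      rw [tb_eq] at h1
      have hc := comm_tw g (hws w List.mem_cons_self) (h _ h1)
      apply fixM_lor h
      intro i hi
      rw [Cfsg.Agent.TcChain36.Out.Fi23.hwa] at hi
      exact fixM_pull hc h i hi

/-- The mask of a list of points. -/
noncomputable def maskOf (bs : List ℕ) : ℕ := List.foldl (fun acc b => Nat.lor acc (Nat.pow 2 b)) 0 bs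

theorem fixM_maskOf {g : Gq} {bs : List ℕ} (h : ∀ b ∈ bs, Phi g b = b) : FixM g (maskOf bs) := by
  have key : ∀ (l : List ℕ) (A : ℕ), (∀ b ∈ l, Phi g b = b) → FixM g A →
      FixM g (List.foldl (fun acc b => Nat.lor acc (Nat.pow 2 b)) A l) := by
    intro l
    induction l with
    | nil => intro A _ hA; exact hA
    | cons a l ih =>
      intro A hl hA
      rw [List.foldl_cons]
      apply ih _ (fun w hw => hl w (List.mem_cons_of_mem _ hw))
      apply fixM_lor hA
      intro i hi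
      have e : Nat.pow 2 a = 2 ^ a := rfl
      rw [e, Nat.testBit_two_pow] at hi
      have : a = i := by simpa using hi
      rw [← this]
      exact hl a List.mem_cons_self
  exact key bs 0 h (fun i hi => by simp at hi)

/-- A product of transpositions. -/
noncomputable def ktw : List (List ℕ) → List ℕ
  | [] => []
  | w :: k => tw w ++ ktw k

/-- A word whose point is fixed. -/
noncomputable def okW (X : ℕ) (w : List ℕ) : Bool := cond (allLt 10 w) (tb X (ev ap w 0)) false

theorem okW_spec {X : ℕ} {w : List ℕ} (h : okW X w = true) : allLt 10 w = true ∧ X.testBit (ev ap w 0) = true := by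
  unfold okW at h
  cases h1 : allLt 10 w with
  | false => rw [h1] at h; simp at h
  | true =>
    rw [h1] at h
    exact ⟨rfl, by rw [← tb_eq]; exact h⟩

theorem comm_ktw {g : Gq} {X : ℕ} (hX : FixM g X) : ∀ k : List (List ℕ), (∀ w ∈ k, okW X w = true) → Commute g (evL Lt0 (ktw k))
  | [], _ => by
    show Commute g (evL Lt0 [])
    simp
  | w :: k, h => by
    show Commute g (evL Lt0 (tw w ++ ktw k))
    rw [evL_append]
    obtain ⟨h1, h2⟩ := okW_spec (h w List.mem_cons_self)
    exact (comm_tw g h1 (hX _ h2)).mul_right (comm_ktw hX k (fun u hu => h u (List.mem_cons_of_mem _ hu)))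

theorem ktw_small {X : ℕ} : ∀ k : List (List ℕ), (∀ w ∈ k, okW X w = true) → evL Lt (ktw k) = evL Lt0 (ktw k)
  | [], _ => rfl
  | w :: k, h => by
    show evL Lt (tw w ++ ktw k) = evL Lt0 (tw w ++ ktw k)
    rw [evL_append, evL_append, evL_tw_small (okW_spec (h w List.mem_cons_self)).1,
      ktw_small k (fun u hu => h u (List.mem_cons_of_mem _ hu))]

/-- The check of the upper bound for an orbit. -/
noncomputable def upChk (Um : ℕ) (bs : List ℕ) (b : ℕ) (prog mw k : List (List ℕ)) (C : ℕ) : Bool :=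
  cond (prog.all (allLt 10)) (frc (runF prog (maskOf bs)) fun X =>
    cond (mw.all (okW X)) (cond (k.all (okW X)) (cond (Nat.beq (ev ap (ktw k) b) b) (cond (Nat.blt b 31671)
      (frc (cellOf UU (Um :: mw.map (Mk wa O2)) b) fun c =>
        allR (fun q => cond (tb c q) (cond (tb C q) true (!(Nat.beq (ev ap (ktw k) q) q))) true) 15 0)
      false) false) false) false) false

theorem up_of_chk {Um : ℕ} {bs : List ℕ} {b : ℕ} {prog mw k : List (List ℕ)} {C : ℕ} (h : upChk Um bs b prog mw k C = true) :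
    ∀ g ∈ Kn Um bs, C.testBit (Phi g b) = true := by
  intro g hg
  obtain ⟨hg1, hg2⟩ := mem_Kn.1 hg
  unfold upChk at h
  cases h1 : prog.all (allLt 10) with
  | false => rw [h1] at h; simp at h
  | true =>
  rw [h1] at h
  simp only [cond_true, frc_eq] at h
  set X := runF prog (maskOf bs) with hXdef
  cases h2 : mw.all (okW X) with
  | false => rw [h2] at h; simp at h
  | true =>
  rw [h2] at h
  simp only [cond_true] at h
  cases h3 : k.all (okW X) with
  | false => rw [h3] at h; simp at h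
  | true =>
  rw [h3] at h
  simp only [cond_true] at h
  cases h4 : Nat.beq (ev ap (ktw k) b) b with
  | false => rw [h4] at h; simp at h
  | true =>
  rw [h4] at h
  simp only [cond_true] at h
  cases h5 : Nat.blt b 31671 with
  | false => rw [h5] at h; simp at h
  | true =>
  rw [h5] at h
  simp only [cond_true, frc_eq] at h
  have hb : b < 31671 := Nat.le_of_ble_eq_true h5
  have hX : FixM g X := fixM_runF g prog _ (fun w hw => List.all_eq_true.mp h1 w hw) (fixM_maskOf hg2)
  have hU : InvM Phi g UU := kit0.invM_univ hUU g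
  have hMs : ∀ M ∈ Um :: mw.map (Mk wa O2), InvM Phi g M := by
    intro M hM
    rcases List.mem_cons.mp hM with rfl | hM
    · exact hg1
    · obtain ⟨w, hw, rfl⟩ := List.mem_map.mp hM
      obtain ⟨e1, e2⟩ := okW_spec (List.all_eq_true.mp h2 w hw)
      exact kit0.invM_Mk (allLt_spec e1) (hX _ e2) (by norm_num)
  have hbU : UU.testBit b = true := by rw [hUU]; exact decide_eq_true hb
  have hcell : (cellOf UU (Um :: mw.map (Mk wa O2)) b).testBit (Phi g b) = true := by
    have hi : InvM Phi g (cellOf UU (Um :: mw.map (Mk wa O2)) b) :=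
      cellOf_inv hU b (Um :: mw.map (Mk wa O2)) UU hU hMs
    rw [hi]
    exact cellOf_self hbU _ UU hbU
  have hq : Phi g b < 31671 := H.bd _ _ hb
  have hspec := allR_spec 15 0 h (Phi g b) (Nat.zero_le _) (by
    have h3 : (31671 : ℕ) ≤ 0 + 2 ^ 15 := by norm_num
    omega)
  beta_reduce at hspec
  rw [tb_eq, hcell] at hspec
  simp only [cond_true] at hspec
  have hk : ev ap (ktw k) (Phi g b) = Phi g b := by
    have hc : Commute g (evL Lt0 (ktw k)) := comm_ktw hX k (fun w hw => List.all_eq_true.mp h3 w hw)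
    rw [← H.ev_eq _ hq, ktw_small k (fun w hw => List.all_eq_true.mp h3 w hw), ← commute_apply hc]
    congr 1
    rw [← ktw_small k (fun w hw => List.all_eq_true.mp h3 w hw), H.ev_eq _ hb]
    exact beq_true h4
  rw [hk, Nat.beq_refl] at hspec
  cases h9 : tb C (Phi g b) with
  | true => rw [tb_eq] at h9; exact h9
  | false => rw [h9] at hspec; simp at hspec

/-- The check of the lower bound for an orbit. -/
noncomputable def loChk (GW : List (List ℕ)) (bs : List ℕ) (b : ℕ) (gs : List (List ℕ)) (r C : ℕ) : Bool :=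
  cond (Nat.beq (clo GW gs r (Nat.pow 2 b)) C)
    (gs.all fun l => bs.all fun x => cond (Nat.blt x 31671) (Nat.beq (evH GW l.reverse x) x) false) false

theorem lo_of_chk {Um : ℕ} {GW : List (List ℕ)} (hGW : GW.all (allLt 10) = true) (hT : ∀ w ∈ GW, evL Lt0 w ∈ Kn Um [])
    {bs : List ℕ} {b : ℕ} {gs : List (List ℕ)} {r C : ℕ} (h : loChk GW bs b gs r C = true) : Reach (Kn Um bs) b C := by
  unfold loChk at h
  cases h1 : Nat.beq (clo GW gs r (Nat.pow 2 b)) C with
  | false => rw [h1] at h; simp at h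
  | true =>
  rw [h1] at h
  simp only [cond_true] at h
  rw [← beq_true h1]
  apply reach_clo _ r _ (reach_pow _ b)
  intro l hl
  refine mem_Kn.2 ⟨(mem_Kn.1 (ex_mem hT l)).1, ?_⟩
  have h2 := List.all_eq_true.mp h l hl
  intro x hx
  have h4 := List.all_eq_true.mp h2 x hx
  cases h5 : Nat.blt x 31671 with
  | false => rw [h5] at h4; simp at h4
  | true =>
  rw [h5] at h4
  simp only [cond_true] at h4
  have h6 := evH_spec hGW l.reverse x (Nat.le_of_ble_eq_true h5)
  rw [List.reverse_reverse] at h6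
  rw [← h6]
  exact beq_true h4

/-- The check of the lower bound for an orbit, along a tree. -/
noncomputable def loChkT (GW : List (List ℕ)) (bs : List ℕ) (b : ℕ) (gs : List (List ℕ)) (st : List (ℕ × ℕ)) (C : ℕ) : Bool :=
  cond (Nat.beq (treeRun GW gs st (Nat.pow 2 b)) C)
    (gs.all fun l => bs.all fun x => cond (Nat.blt x 31671) (Nat.beq (evH GW l.reverse x) x) false) false

theorem lo_of_chkT {Um : ℕ} {GW : List (List ℕ)} (hGW : GW.all (allLt 10) = true) (hT : ∀ w ∈ GW, evL Lt0 w ∈ Kn Um [])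
    {bs : List ℕ} {b : ℕ} (hb : b < 31671) {gs : List (List ℕ)} {st : List (ℕ × ℕ)} {C : ℕ} (h : loChkT GW bs b gs st C = true) :
    Reach (Kn Um bs) b C := by
  unfold loChkT at h
  cases h1 : Nat.beq (treeRun GW gs st (Nat.pow 2 b)) C with
  | false => rw [h1] at h; simp at h
  | true =>
  rw [h1] at h
  simp only [cond_true] at h
  rw [← beq_true h1]
  apply reach_tree hb hGW _ st _ (reach_pow _ b)
  intro l hl
  refine mem_Kn.2 ⟨(mem_Kn.1 (ex_mem hT l)).1, ?_⟩
  have h2 := List.all_eq_true.mp h l hl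
  intro x hx
  have h4 := List.all_eq_true.mp h2 x hx
  cases h5 : Nat.blt x 31671 with
  | false => rw [h5] at h4; simp at h4
  | true =>
  rw [h5] at h4
  simp only [cond_true] at h4
  have h6 := evH_spec hGW l.reverse x (Nat.le_of_ble_eq_true h5)
  rw [List.reverse_reverse] at h6
  rw [← h6]
  exact beq_true h4

/-- The last stage. -/
noncomputable def endChk (bs : List ℕ) (prog : List (List ℕ)) : Bool :=
  cond (prog.all (allLt 10)) (frc (runF prog (maskOf bs)) fun X => bsL.all (tb X)) false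

theorem one_of_chk {Um : ℕ} {bs : List ℕ} {prog : List (List ℕ)} (h : endChk bs prog = true) : ∀ g ∈ Kn Um bs, g = 1 := by
  intro g hg
  unfold endChk at h
  cases h1 : prog.all (allLt 10) with
  | false => rw [h1] at h; simp at h
  | true =>
  rw [h1] at h
  simp only [cond_true, frc_eq] at h
  have hX : FixM g (runF prog (maskOf bs)) :=
    fixM_runF g prog _ (fun w hw => List.all_eq_true.mp h1 w hw) (fixM_maskOf (mem_Kn.1 hg).2)
  apply hbs
  intro b hb
  apply hX
  rw [← tb_eq]
  exact List.all_eq_true.mp h b hb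

theorem card_one_of {Um : ℕ} {bs : List ℕ} (h : ∀ g ∈ Kn Um bs, g = 1) : Nat.card (Kn Um bs) = 1 := by
  rw [Nat.card_eq_one_iff_unique]
  refine ⟨⟨?_⟩, ⟨1⟩⟩
  intro x y
  apply Subtype.ext
  rw [h x.1 x.2, h y.1 y.2]

theorem inv_of_wa {w : List ℕ} {Um : ℕ} (h : Nat.beq (wa w Um) Um = true) : InvM Phi (evL Lt0 w) Um := by
  intro i
  have h1 := beq_true h
  rw [← Cfsg.Agent.TcChain36.Out.Fi23.hwa, h1]

/-! ## Maximality -/

theorem simpleGq : IsSimpleGroup Gq := Cfsg.Agent.TcChain36.Fi23.main.1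

theorem top_of_reach {R : Subgroup Gq} (hz : Fi23K24.zz ∈ R) (hne : Fi23K24.zz ≠ 1) (h : ∀ i, i < 31671 → ∃ t ∈ R, Phi t 0 = i) : R = ⊤ := by
  have hsimple := simpleGq
  have h1 : Subgroup.normalClosure ({Fi23K24.zz} : Set Gq) ≤ R := by
    unfold Subgroup.normalClosure
    rw [Subgroup.closure_le]
    intro x hx
    obtain ⟨b, hb, hc⟩ := Group.mem_conjugatesOfSet_iff.mp hx
    rw [Set.mem_singleton_iff] at hb
    subst hb
    obtain ⟨g, rfl⟩ := isConj_iff.mp hc
    obtain ⟨t, ht, e⟩ := h (Phi g 0) (h1bd g)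
    have p1 : Pq (g * Fi23K24.zz * g⁻¹) (Phi g 0) := ⟨g, rfl, rfl⟩
    have p2 : Pq (t * Fi23K24.zz * t⁻¹) (Phi g 0) := ⟨t, rfl, e⟩
    rw [pq_inj p1 p2]
    exact R.mul_mem (R.mul_mem ht hz) (R.inv_mem ht)
  have h2 : Subgroup.normalClosure ({Fi23K24.zz} : Set Gq) = ⊤ := by
    rcases IsSimpleGroup.eq_bot_or_eq_top_of_normal (Subgroup.normalClosure ({Fi23K24.zz} : Set Gq)) inferInstance with h3 | h3
    · exfalso
      apply hne
      have h4 : Fi23K24.zz ∈ Subgroup.normalClosure ({Fi23K24.zz} : Set Gq) := Subgroup.subset_normalClosure rfl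
      rw [h3] at h4
      simpa using h4
    · exact h3
  rw [eq_top_iff, ← h2]
  exact h1

/-- The letters are transpositions. -/
theorem top_of_letters {R : Subgroup Gq} (h : ∀ x : Cfsg.Spor.Fi23.Gen, (PresentedGroup.of x : Gq) ∈ R) : R = ⊤ := by
  rw [eq_top_iff, ← PresentedGroup.closure_range_of, Subgroup.closure_le]
  rintro _ ⟨x, rfl⟩
  exact h x

/-- A new point forces everything. -/
theorem new_point {R : Subgroup Gq} {Um : ℕ} {GW : List (List ℕ)}
    (hT : ∀ w ∈ GW, evL Lt0 w ∈ Kn Um [])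
    (hR : Kn Um [] ≤ R) (hzR : Fi23K24.zz ∈ R) {wp : List ℕ} (hwp : allLt 10 wp = true) {gs : List (List ℕ)}
    {st : List (ℕ × ℕ)} {LW : List (List ℕ)}
    (hY : frc (treeRun (tw wp :: GW) gs st (Nat.pow 2 0)) (fun Y => LW.all (okW Y)) = true)
    (hLW : ∀ x : Cfsg.Spor.Fi23.Gen, ∃ w ∈ LW, evL Lt0 (tw w) = PresentedGroup.of x)
    (hall : (tw wp :: GW).all (allLt 10) = true)
    {t : Gq} (ht : t ∈ R) (hp : Phi t 0 = ev ap wp 0) : R = ⊤ := by
  have h1 : evL Lt0 (tw wp) ∈ R := by
    rw [evL_tw hwp]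
    have p1 : Pq (t * Fi23K24.zz * t⁻¹) (ev ap wp 0) := ⟨t, rfl, hp⟩
    rw [← pq_inj p1 (trq_pq wp)]
    exact R.mul_mem (R.mul_mem ht hzR) (R.inv_mem ht)
  rw [frc_eq] at hY
  have h2 : Reach R 0 (treeRun (tw wp :: GW) gs st (Nat.pow 2 0)) := by
    apply reach_tree (by norm_num) hall _ st _ (reach_pow _ 0)
    intro l _
    apply ex_mem
    intro w hw
    rcases List.mem_cons.mp hw with rfl | hw
    · exact h1
    · exact hR (hT w hw)
  apply top_of_letters
  intro x
  obtain ⟨w, hwL, e⟩ := hLW x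
  obtain ⟨hw, hb⟩ := okW_spec (List.all_eq_true.mp hY w hwL)
  obtain ⟨u, hu, eu⟩ := h2 _ hb
  rw [← e, evL_tw hw]
  have p1 : Pq (u * Fi23K24.zz * u⁻¹) (ev ap w 0) := ⟨u, rfl, eu⟩
  rw [← pq_inj p1 (trq_pq w)]
  exact R.mul_mem (R.mul_mem hu hzR) (R.inv_mem hu)

/-- A word for the letters. -/
theorem letter_tw {j : ℕ} (hj : j < 10) {w : List ℕ} (hw : allLt 10 w = true) (h : isOne ap bsL (j :: tw w) = true) :
    evL Lt0 (tw w) = PresentedGroup.of (dec j) := by
  have h1 := evL_eq_one h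
  rw [evL_cons, evL_tw_small hw, hLet j hj] at h1
  have h2 := Cfsg.Agent.TcChain36.Fi23.sq (dec j)
  have h3 : evL Lt0 (tw w) = (PresentedGroup.of (dec j))⁻¹ := eq_inv_of_mul_eq_one_right h1
  rw [h3]
  exact (eq_inv_of_mul_eq_one_left h2).symm

theorem exists_dec (x : Cfsg.Spor.Fi23.Gen) : ∃ j, j < 10 ∧ dec j = x := by
  cases x
  · exact ⟨0, by norm_num, rfl⟩
  · exact ⟨1, by norm_num, rfl⟩
  · exact ⟨2, by norm_num, rfl⟩
  · exact ⟨3, by norm_num, rfl⟩
  · exact ⟨4, by norm_num, rfl⟩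
  · exact ⟨5, by norm_num, rfl⟩
  · exact ⟨6, by norm_num, rfl⟩
  · exact ⟨7, by norm_num, rfl⟩
  · exact ⟨8, by norm_num, rfl⟩
  · exact ⟨9, by norm_num, rfl⟩

/-- A subgroup bigger than the stabilizer of a mask moves `0` out of the mask. -/
theorem exists_out {R : Subgroup Gq} {Um : ℕ} (h0 : Reach (Kn Um []) 0 Um) (hR : Kn Um [] < R) :
    ∃ t ∈ R, Um.testBit (Phi t 0) = false := by
  obtain ⟨hle, g, hg, hg'⟩ := SetLike.lt_iff_le_and_exists.mp hR
  have hnot : ¬ InvM Phi g Um := fun h => hg' (mem_Kn.2 ⟨h, by simp⟩)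
  unfold InvM at hnot
  push Not at hnot
  obtain ⟨i, hi⟩ := hnot
  have key : ∃ u ∈ R, ∃ p, Um.testBit p = true ∧ Um.testBit (Phi u p) = false := by
    cases h1 : Um.testBit i with
    | true =>
      rw [h1] at hi
      refine ⟨g, hg, i, h1, ?_⟩
      simpa using hi
    | false =>
      rw [h1] at hi
      have h2 : Um.testBit (Phi g i) = true := by simpa using hi
      refine ⟨g⁻¹, R.inv_mem hg, Phi g i, h2, ?_⟩
      rw [phi_inv_l]
      exact h1
  obtain ⟨u, hu, p, hp, hq⟩ := key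
  obtain ⟨t, ht, e⟩ := h0 p hp
  refine ⟨u * t, R.mul_mem hu (hle ht), ?_⟩
  rw [map_mul, Equiv.Perm.mul_apply, e]
  exact hq

/-! ## Derived series -/

/-- Membership in the derived series. -/
def IsD (T : Subgroup Gq) (k : ℕ) (g : Gq) : Prop := ∃ hg : g ∈ T, (⟨g, hg⟩ : T) ∈ derivedSeries T k

theorem isD_zero {T : Subgroup Gq} {g : Gq} (hg : g ∈ T) : IsD T 0 g := ⟨hg, by simp⟩

theorem isD_mem {T : Subgroup Gq} {k : ℕ} {g : Gq} (h : IsD T k g) : g ∈ T := h.1

theorem isD_comm {T : Subgroup Gq} {k : ℕ} {x y : Gq} (hx : IsD T k x) (hy : IsD T k y) :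
    IsD T (k + 1) (x * y * x⁻¹ * y⁻¹) := by
  obtain ⟨h1, h2⟩ := hx
  obtain ⟨h3, h4⟩ := hy
  refine ⟨T.mul_mem (T.mul_mem (T.mul_mem h1 h3) (T.inv_mem h1)) (T.inv_mem h3), ?_⟩
  rw [derivedSeries_succ]
  exact Subgroup.commutator_mem_commutator h2 h4

theorem isD_conj {T : Subgroup Gq} {k : ℕ} {x c : Gq} (hx : IsD T k x) (hc : c ∈ T) : IsD T k (c * x * c⁻¹) := by
  obtain ⟨h1, h2⟩ := hx
  refine ⟨T.mul_mem (T.mul_mem hc h1) (T.inv_mem hc), ?_⟩
  haveI := derivedSeries_normal T k
  exact Subgroup.Normal.conj_mem inferInstance _ h2 ⟨c, hc⟩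

/-- The commutator of a word with a conjugate. -/
def cw (a c : List ℕ) : List ℕ := a ++ c ++ a ++ c.reverse ++ a.reverse ++ c ++ a.reverse ++ c.reverse

/-- A word in generators is trivial. -/
noncomputable def isOneX (GW : List (List ℕ)) (w : List ℕ) : Bool :=
  bsL.all fun b => Nat.beq (evH GW w.reverse b) b

theorem isOneX_spec {GW : List (List ℕ)} (hGW : GW.all (allLt 10) = true) {w : List ℕ} (h : isOneX GW w = true) :
    evL Lt0 (ex GW w) = 1 := by
  apply hbs
  intro b hb
  have h1 := List.all_eq_true.mp h b hb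
  have h3 := evH_spec hGW w.reverse b (hbn b hb)
  rw [List.reverse_reverse] at h3
  rw [← h3]
  exact beq_true h1

theorem ne_one_of {GW : List (List ℕ)} (hGW : GW.all (allLt 10) = true) {w : List ℕ} {b : ℕ} (hb : b < 31671)
    (h : Nat.beq (evH GW w.reverse b) b = false) : evL Lt0 (ex GW w) ≠ 1 := by
  intro h1
  have h3 := evH_spec hGW w.reverse b hb
  rw [List.reverse_reverse, h1] at h3
  simp only [map_one, Equiv.Perm.one_apply] at h3
  rw [h3, Nat.beq_refl] at h
  simp at h

/-- Inverses of words in involutions. -/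
theorem ex_reverse {GW : List (List ℕ)} (hsq : ∀ w ∈ GW, evL Lt0 w * evL Lt0 w = 1) :
    ∀ l : List ℕ, evL Lt0 (ex GW l.reverse) = (evL Lt0 (ex GW l))⁻¹
  | [] => by simp [ex]
  | j :: l => by
    have h : evL Lt0 (ex GW [j]) = evL Lt0 (GW.getD j []) := by simp [ex]
    have h2 : evL Lt0 (ex GW (j :: l)) = evL Lt0 (GW.getD j []) * evL Lt0 (ex GW l) := by rw [ex_cons, evL_append]
    rw [List.reverse_cons, ex_append, evL_append, ex_reverse hsq l, h, h2, mul_inv_rev]
    congr 1
    by_cases hj : j < GW.length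
    · rw [List.getD_eq_getElem _ _ hj]
      exact eq_inv_of_mul_eq_one_left (hsq _ (List.getElem_mem hj))
    · rw [List.getD_eq_default _ _ (by omega)]
      simp

theorem isD_step {T : Subgroup Gq} {k : ℕ} {GW : List (List ℕ)} (hGW : GW.all (allLt 10) = true)
    (hsq : ∀ w ∈ GW, evL Lt0 w * evL Lt0 w = 1) {a c a' : List ℕ} (ha : IsD T k (evL Lt0 (ex GW a)))
    (hc : evL Lt0 (ex GW c) ∈ T) (h : isOneX GW (a'.reverse ++ cw a c) = true) : IsD T (k + 1) (evL Lt0 (ex GW a')) := by
  have h4 := isOneX_spec hGW h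
  simp only [cw, ex_append, evL_append] at h4
  rw [ex_reverse hsq a', ex_reverse hsq a, ex_reverse hsq c] at h4
  set x := evL Lt0 (ex GW a)
  set u := evL Lt0 (ex GW c)
  set v := evL Lt0 (ex GW a')
  have h5 : v = x * (u * x * u⁻¹) * x⁻¹ * (u * x * u⁻¹)⁻¹ := by
    have h7 : x * u * x * u⁻¹ * x⁻¹ * u * x⁻¹ * u⁻¹ = v := by
      have := congrArg (fun z => v * z) h4
      simpa [mul_assoc] using this
    rw [← h7]
    group
  rw [h5]
  exact isD_comm ha (isD_conj ha hc)

/-- A step of the chain, testing an element of the stabilizer on a base of the stabilizer. -/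
theorem isD_stepB {Um : ℕ} {k : ℕ} {GW : List (List ℕ)} {bsT : List ℕ} (hone : ∀ g ∈ Kn Um bsT, g = 1)
    (hbT : ∀ b ∈ bsT, b < 31671) (hGW : GW.all (allLt 10) = true) (hT : ∀ w ∈ GW, evL Lt0 w ∈ Kn Um [])
    (hsq : ∀ w ∈ GW, evL Lt0 w * evL Lt0 w = 1) {a c a' : List ℕ} (ha : IsD (Kn Um []) k (evL Lt0 (ex GW a)))
    (hc : evL Lt0 (ex GW c) ∈ Kn Um [])
    (h : ∀ b ∈ bsT, Nat.beq (evH GW (a'.reverse ++ cw a c).reverse b) b = true) :
    IsD (Kn Um []) (k + 1) (evL Lt0 (ex GW a')) := by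
  have h4 : evL Lt0 (ex GW (a'.reverse ++ cw a c)) = 1 := by
    apply hone
    refine mem_Kn.2 ⟨(mem_Kn.1 (ex_mem hT _)).1, ?_⟩
    intro b hb
    have h3 := evH_spec hGW (a'.reverse ++ cw a c).reverse b (hbT b hb)
    rw [List.reverse_reverse] at h3
    rw [← h3]
    exact beq_true (h b hb)
  simp only [cw, ex_append, evL_append] at h4
  rw [ex_reverse hsq a', ex_reverse hsq a, ex_reverse hsq c] at h4
  set x := evL Lt0 (ex GW a)
  set u := evL Lt0 (ex GW c)
  set v := evL Lt0 (ex GW a')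
  have h5 : v = x * (u * x * u⁻¹) * x⁻¹ * (u * x * u⁻¹)⁻¹ := by
    have h7 : x * u * x * u⁻¹ * x⁻¹ * u * x⁻¹ * u⁻¹ = v := by
      have := congrArg (fun z => v * z) h4
      simpa [mul_assoc] using this
    rw [← h7]
    group
  rw [h5]
  exact isD_comm ha (isD_conj ha hc)

/-- The conclusion for the derived series. -/
theorem derived_ne {T : Subgroup Gq} {x : Gq} (hsolv : IsSolvable T) (h : IsD T 9 x) (hx : x ≠ 1) :
    derivedSeries T 10 ≠ derivedSeries T 9 := by
  intro heq
  obtain ⟨n, hn⟩ := hsolv.solvable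
  have hstable : ∀ m, derivedSeries T (9 + m) = derivedSeries T 9 := by
    intro m
    induction m with
    | zero => rfl
    | succ m ih =>
      have : derivedSeries T (9 + (m + 1)) = ⁅derivedSeries T (9 + m), derivedSeries T (9 + m)⁆ := derivedSeries_succ T (9 + m)
      rw [this, ih, ← derivedSeries_succ]
      exact heq
  have hbot : derivedSeries T 9 = ⊥ := by
    have h1 := hstable n
    have h2 : derivedSeries T (9 + n) ≤ derivedSeries T n := derivedSeries_antitone T (by omega)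
    rw [h1, hn] at h2
    exact le_bot_iff.mp h2
  obtain ⟨hg, h2⟩ := h
  rw [hbot, Subgroup.mem_bot] at h2
  exact hx (congrArg Subtype.val h2)

end Cfsg.Agent.Lib.Fi23Mx
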