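-- Shared library: W-related pairs inside D_x force no commuting triple, helper19.
import Mathlib
import Cfsg.Agent.Lib.FischerBasis19
import Cfsg.Agent.Lib.PSL2Solv

set_option autoImplicit false
set_option linter.unusedSimpArgs false
set_option linter.unusedVariables false
set_option linter.unusedSectionVars false

open Cfsg
open Cfsg.Agent.Lib.ThreeTransCore Cfsg.Agent.Lib.FischerRel Cfsg.Agent.Lib.FischerW
open Cfsg.Agent.Lib.FischerBlock Cfsg.Agent.Lib.FischerPrim Cfsg.Agent.Lib.FischerRank19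
open Cfsg.Agent.Lib.FischerDx19 Cfsg.Agent.Lib.FischerBasis19

namespace Cfsg.Agent.Lib.FischerFive19

variable {G : Type*} [Group G] {D : Set G}

/-- `y, y'` are non-commuting members of `D_x` with the same commuting partners in `D_x`. -/
def WPair (D : Set G) (x y y' : G) : Prop :=
  y ∈ RSet D x ∧ y' ∈ RSet D x ∧ ¬ Commute y y' ∧
    ∀ z ∈ RSet D x, z ≠ y → z ≠ y' → (Commute y z ↔ Commute y' z)

theorem WPair.conj (hD : IsThreeTranspositionClass D) {x y y' : G} (h : WPair D x y y') (g : G) :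
    WPair D (g * x * g⁻¹) (g * y * g⁻¹) (g * y' * g⁻¹) := by
  obtain ⟨h1, h2, h3, h4⟩ := h
  have hm : ∀ t, t ∈ RSet D x → g * t * g⁻¹ ∈ RSet D (g * x * g⁻¹) := by
    intro t ht
    rw [mem_RSet_conj hD]
    have e : g⁻¹ * (g * t * g⁻¹) * g = t := by group
    rwa [e]
  refine ⟨hm _ h1, hm _ h2, fun hc => h3 ((commute_conj_conj_iff g y y').mp hc), ?_⟩
  intro z hz hzy hzy'
  rw [mem_RSet_conj hD] at hz
  have e : z = g * (g⁻¹ * z * g) * g⁻¹ := by group
  rw [e, commute_conj_conj_iff, commute_conj_conj_iff]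
  apply h4 _ hz
  · rintro rfl
    apply hzy
    group
  · rintro rfl
    apply hzy'
    group

section words

variable (hD : IsThreeTranspositionClass D)
include hD

/-- The key lemma: if `y, y'` are `W`-related in `D_x` and `w` commutes with `y` but not `y'`, every
member of `D_x` commuting with `y` commutes with `w`. -/
theorem commute_of_wpair {x y y' w v : G} (hx : x ∈ D) (h : WPair D x y y') (hw : w ∈ D)
    (hyw : Commute y w) (hy'w : ¬ Commute y' w) (hv : v ∈ RSet D x) (hvy : v ≠ y) (hyv : Commute y v) :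
    Commute v w := by
  have h3 := hD.1
  by_cases hwy : w = y
  · rw [hwy]; exact hyv.symm
  obtain ⟨hy, hy', hyy', hall⟩ := id h
  have hwy' : w ≠ y' := by
    rintro rfl
    exact hy'w (Commute.refl _)
  have hxw : ¬ Commute x w := by
    intro hc
    have hwx : w ≠ x := by
      rintro rfl
      exact hy'w hy'.2.2.symm
    have := (hall w ⟨hw, hwx, hc⟩ hwy hwy').mp hyw
    exact hy'w this
  have hxy' : x ≠ y' := hy'.2.1.symm
  obtain ⟨φ, hinj, h01, h12, h23⟩ := exists_sym4 h3 hx hw hy'.1 hxy' hy'.2.2 hxw (fun hc => hy'w hc.symm)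
  set g₁ : G := φ (Equiv.swap 0 2) with hg₁
  set g₂ : G := φ (Equiv.swap 1 3) with hg₂
  set g : G := φ (Equiv.swap 0 2 * Equiv.swap 1 3) with hg
  have hgg : g = g₁ * g₂ := by rw [hg, map_mul]
  have hg1 : g * x * g⁻¹ = y' := by
    rw [← h01, ← h23, hg, ← map_inv, ← map_mul, ← map_mul]
    congr 1
    decide
  have hg2 : g * y' * g⁻¹ = x := by
    rw [← h01, ← h23, hg, ← map_inv, ← map_mul, ← map_mul]
    congr 1
    decide
  have hg₁e : g₁ = x * w * x := by
    rw [← h01, ← h12, hg₁, ← map_mul, ← map_mul]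
    congr 1
    decide
  have hg₂e : g₂ = y' * w * y' := by
    rw [← h23, ← h12, hg₂, ← map_mul, ← map_mul]
    congr 1
    decide
  have hc12 : Commute g₁ g₂ := by
    show φ _ * φ _ = φ _ * φ _
    rw [← map_mul, ← map_mul]
    congr 1
    decide
  have hcxy : Commute x y := hy.2.2
  have hc1y : Commute g₁ y := by
    rw [hg₁e]
    exact (hcxy.mul_left hyw.symm).mul_left hcxy
  have hg₂D : g₂ ∈ D := by
    rw [hg₂e]
    have := conj_mem hD y' hw
    rwa [inv_of_mem h3 hy'.1] at this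
  have hg₂y : ¬ Commute g₂ y := by
    intro hc
    rw [hg₂e, braid_of_not_commute h3 hy'.1 hw hy'w] at hc
    apply hyy'
    have e : w * y * w⁻¹ = y := by rw [hyw.symm.eq]; group
    have hc' : Commute (w * y' * w⁻¹) (w * y * w⁻¹) := by
      rw [e, inv_of_mem h3 hw]
      exact hc
    exact ((commute_conj_conj_iff w y' y).mp hc').symm
  have hbr := braid_of_not_commute h3 hg₂D hy.1 hg₂y
  have hu : g * y * g⁻¹ = y * g₂ * y := by
    have hinv₂ : g₂⁻¹ = g₂ := inv_of_mem h3 hg₂D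
    have e1 : g₂ * y * g₂⁻¹ = y * g₂ * y := by rw [hinv₂, hbr]
    rw [hgg]
    calc g₁ * g₂ * y * (g₁ * g₂)⁻¹ = g₁ * (g₂ * y * g₂⁻¹) * g₁⁻¹ := by group
      _ = g₁ * (y * g₂ * y) * g₁⁻¹ := by rw [e1]
      _ = y * g₂ * y := by
        have : Commute g₁ (y * g₂ * y) := (hc1y.mul_right hc12).mul_right hc1y
        rw [this.eq]; group
  have hW' := h.conj hD g
  rw [hg1, hg2, hu] at hW'
  have hvy' : v ≠ y' := by
    rintro rfl
    exact hyy' hyv
  have hcy'v : Commute y' v := (hall v hv hvy hvy').mp hyv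
  have hvR : v ∈ RSet D y' := ⟨hv.1, hvy', hcy'v⟩
  have hcu : Commute (y * g₂ * y) v := by
    by_cases hvu : v = y * g₂ * y
    · rw [← hvu]
    · exact (hW'.2.2.2 v hvR hvu hv.2.1).mpr hv.2.2
  have hyy : y * y = 1 := mul_self_of_mem h3 hy.1
  have hcg₂ : Commute g₂ v := by
    have e : g₂ = y * (y * g₂ * y) * y := by
      calc g₂ = (y * y) * g₂ * (y * y) := by rw [hyy]; group
        _ = _ := by group
    rw [e]
    exact (hyv.mul_left hcu).mul_left hyv
  have hy'y' : y' * y' = 1 := mul_self_of_mem h3 hy'.1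
  have e : w = y' * g₂ * y' := by
    rw [hg₂e]
    calc w = (y' * y') * w * (y' * y') := by rw [hy'y']; group
      _ = _ := by group
  rw [e]
  exact ((hcy'v.mul_left hcg₂).mul_left hcy'v).symm

/-- The member `x` does not commute with `w`. -/
theorem not_commute_of_wpair {x y y' w : G} (h : WPair D x y y') (hw : w ∈ D) (hwy : w ≠ y)
    (hyw : Commute y w) (hy'w : ¬ Commute y' w) : ¬ Commute x w := by
  obtain ⟨hy, hy', hyy', hall⟩ := id h
  have hwy' : w ≠ y' := by
    rintro rfl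
    exact hy'w (Commute.refl _)
  intro hc
  have hwx : w ≠ x := by
    rintro rfl
    exact hy'w hy'.2.2.symm
  exact hy'w ((hall w ⟨hw, hwx, hc⟩ hwy hwy').mp hyw)

end words

section setup

variable [Finite G]

/-- Under `W`-pairs everywhere, there is no commuting triple. -/
theorem no_triple (S : Setup D) (hW : ∀ p ∈ D, ∀ q ∈ RSet D p, ∃ q', WPair D p q q') {x y z : G} (hx : x ∈ D)
    (hy : y ∈ RSet D x) (hz : z ∈ RSet D x) (hzy : z ≠ y) (hc : Commute y z) : False := by
  have hD := S.hD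
  have h3 := hD.1
  obtain ⟨y', hY⟩ := hW x hx y hy
  obtain ⟨z', hZ⟩ := hW x hx z hz
  have hzy' : z ≠ y' := by
    rintro rfl
    exact hY.2.2.1 hc
  have hy'z : Commute y' z := (hY.2.2.2 z hz hzy hzy').mp hc
  have hz'y : z' ≠ y := by
    rintro rfl
    exact hZ.2.2.1 hc.symm
  have hyz' : Commute z' y := (hZ.2.2.2 y hy hzy.symm hz'y.symm).mp hc.symm
  have hz'y' : z' ≠ y' := by
    rintro rfl
    exact hZ.2.2.1 hy'z.symm
  have hy'z' : Commute y' z' := (hY.2.2.2 z' hZ.2.1 hz'y hz'y').mp hyz'.symm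
  obtain ⟨w, hwR, hw⟩ := exists_neighbour S hy.1 hY.2.1.1 hY.2.2.1
  obtain ⟨w', hw'R, hw'⟩ := exists_neighbour S hz.1 hZ.2.1.1 hZ.2.2.1
  have hzw : Commute z w := commute_of_wpair hD hx hY hwR.1 hwR.2.2 hw hz hzy hc
  have hz'w : Commute z' w := commute_of_wpair hD hx hY hwR.1 hwR.2.2 hw hZ.2.1 hz'y hyz'.symm
  have hyw' : Commute y w' := commute_of_wpair hD hx hZ hw'R.1 hw'R.2.2 hw' hy hzy.symm hc.symm
  have hy'w' : Commute y' w' :=
    commute_of_wpair hD hx hZ hw'R.1 hw'R.2.2 hw' hY.2.1 hzy'.symm hy'z.symm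
  have hxw : ¬ Commute x w := not_commute_of_wpair hD hY hwR.1 hwR.2.1 hwR.2.2 hw
  have hxw' : ¬ Commute x w' := not_commute_of_wpair hD hZ hw'R.1 hw'R.2.1 hw'R.2.2 hw'
  -- choose `a`
  obtain ⟨a, haD, hya, hy'a, hz'a, haw'⟩ : ∃ a ∈ D, Commute y a ∧ ¬ Commute y' a ∧ Commute z' a ∧ ¬ Commute a w' := by
    by_cases hww : Commute w w'
    · refine ⟨x * w * x, ?_, ?_, ?_, ?_, ?_⟩
      · have := conj_mem hD x hwR.1
        rwa [inv_of_mem h3 hx] at this
      · exact (hy.2.2.symm.mul_right hwR.2.2).mul_right hy.2.2.symm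
      · intro hc'
        apply hw
        have e : x * y' * x⁻¹ = y' := by rw [hY.2.1.2.2.eq]; group
        have hc'' : Commute (x * y' * x⁻¹) (x * w * x⁻¹) := by
          rw [e, inv_of_mem h3 hx]
          exact hc'
        exact (commute_conj_conj_iff x y' w).mp hc''
      · exact (hZ.2.1.2.2.symm.mul_right hz'w).mul_right hZ.2.1.2.2.symm
      · intro hc'
        apply hxw'
        have hbr := braid_of_not_commute h3 hx hwR.1 hxw
        have hww' : w * w = 1 := mul_self_of_mem h3 hwR.1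
        have e : x = w * (x * w * x) * w := by
          rw [hbr]
          calc x = (w * w) * x * (w * w) := by rw [hww']; group
            _ = _ := by group
        rw [e]
        exact (hww.mul_left hc').mul_left hww
    · exact ⟨w, hwR.1, hwR.2.2, hw, hz'w, hww⟩
  -- the third point
  have haa : a⁻¹ = a := inv_of_mem h3 haD
  have hw'inv : w'⁻¹ = w' := inv_of_mem h3 hw'R.1
  have hbr := braid_of_not_commute h3 haD hw'R.1 haw'
  have hcD : a * w' * a ∈ D := by
    have := conj_mem hD a hw'R.1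
    rwa [haa] at this
  have hyc : Commute y (a * w' * a) := (hya.mul_right hyw').mul_right hya
  have hy'c : ¬ Commute y' (a * w' * a) := by
    rw [hbr]
    intro hc'
    apply hy'a
    have e : w' * y' * w'⁻¹ = y' := by rw [hy'w'.symm.eq]; group
    have hc'' : Commute (w' * y' * w'⁻¹) (w' * a * w'⁻¹) := by
      rw [e, hw'inv]
      exact hc'
    exact (commute_conj_conj_iff w' y' a).mp hc''
  have hz'c : ¬ Commute z' (a * w' * a) := by
    intro hc'
    apply hw'
    have e : a * z' * a⁻¹ = z' := by rw [hz'a.symm.eq]; group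
    have hc'' : Commute (a * z' * a⁻¹) (a * w' * a⁻¹) := by
      rw [e, haa]
      exact hc'
    exact (commute_conj_conj_iff a z' w').mp hc''
  exact hz'c (commute_of_wpair hD hx hY hcD hyc hy'c hZ.2.1 hz'y hyz'.symm)

/-- A `W`-pair propagates to all commuting pairs. -/
theorem wpair_all (S : Setup D) {x y y' : G} (hx : x ∈ D) (h : WPair D x y y') :
    ∀ p ∈ D, ∀ q ∈ RSet D p, ∃ q', WPair D p q q' := by
  intro p hp q hq
  obtain ⟨g, rfl, rfl⟩ := exists_pair_commute S hx h.1 hp hq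
  exact ⟨_, h.conj S.hD g⟩

/-- Transitivity on ordered non-commuting pairs. -/
theorem exists_pair_not_commute (S : Setup D) {x y x' y' : G} (hx : x ∈ D) (hy : y ∈ D) (hxy : ¬ Commute x y)
    (hx' : x' ∈ D) (hy' : y' ∈ D) (hxy' : ¬ Commute x' y') :
    ∃ g : G, g * x * g⁻¹ = x' ∧ g * y * g⁻¹ = y' := by
  obtain ⟨h, rfl⟩ := exists_conj S.hD hx hx'
  obtain ⟨-, -, -, ht⟩ := rank_three S.hD S.hD2 S.h2 S.h3 S.hblk (conj_mem S.hD h hx)
  have hn : ¬ Commute (h * x * h⁻¹) (h * y * h⁻¹) := fun hc => hxy ((commute_conj_conj_iff h x y).mp hc)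
  obtain ⟨k, hk, hk'⟩ := ht _ (conj_mem S.hD h hy) _ hy' hn hxy'
  refine ⟨k * h, ?_, ?_⟩
  · calc k * h * x * (k * h)⁻¹ = k * (h * x * h⁻¹) * k⁻¹ := by group
      _ = _ := by rw [hk.eq]; group
  · calc k * h * y * (k * h)⁻¹ = k * (h * y * h⁻¹) * k⁻¹ := by group
      _ = _ := hk'

end setup

section clique

variable [Finite G]

/-- A set of involutions all of whose products have order dividing three and closed under conjugation
by its members has cardinality a power of three. -/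
theorem card_clique_pow_three {T : Set G} {a : G} (ha : a ∈ T) (hinv : ∀ s ∈ T, s * s = 1)
    (hcube : ∀ p ∈ T, ∀ q ∈ T, (p * q) ^ 3 = 1) (hconj : ∀ x ∈ T, ∀ s ∈ T, x * s * x⁻¹ ∈ T) :
    ∃ m : ℕ, T.ncard = 3 ^ m := by
  classical
  set H := Subgroup.closure T with hH
  let T' : Set H := {h | (h : G) ∈ T}
  have hTinv : ∀ s ∈ T', s * s = 1 := by
    intro s hs
    ext
    exact hinv _ hs
  have hcl : ∀ w ∈ H, ∀ s ∈ T, w * s * w⁻¹ ∈ T := Cfsg.Agent.Lib.Width1.conj_closure_mem hinv hconj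
  have hTc : ∀ g : H, ∀ s ∈ T', g * s * g⁻¹ ∈ T' := by
    intro g s hs
    exact hcl _ g.2 _ hs
  have hT3 : ∀ p ∈ T', ∀ q ∈ T', (p * q) ^ 3 = 1 := by
    intro p hp q hq
    ext
    exact hcube _ hp _ hq
  have hmem := Cfsg.Agent.Lib.Width1.mul_mem_pCore_three hTinv hTc hT3
  have : Fact (Nat.Prime 3) := ⟨Nat.prime_three⟩
  have hPp : IsPGroup 3 (pCore 3 H) := Cfsg.Agent.Lib.PCore.isPGroup_pCore 3
  let act : MulAction (pCore 3 H) T :=
    { smul := fun p s => ⟨(p : H) * s.1 * ((p : H) : G)⁻¹, hcl _ (p : H).2 _ s.2⟩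
      one_smul := by
        intro s
        apply Subtype.ext
        show ((1 : pCore 3 H) : H).1 * s.1 * (((1 : pCore 3 H) : H).1)⁻¹ = s.1
        simp
      mul_smul := by
        intro p q s
        apply Subtype.ext
        show ((p * q : pCore 3 H) : H).1 * s.1 * (((p * q : pCore 3 H) : H).1)⁻¹ =
          (p : H).1 * ((q : H).1 * s.1 * ((q : H).1)⁻¹) * ((p : H).1)⁻¹
        simp only [Subgroup.coe_mul, mul_inv_rev]
        group }
  have horb : MulAction.orbit (pCore 3 H) (⟨a, ha⟩ : T) = Set.univ := by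
    apply Set.eq_univ_of_forall
    rintro ⟨q, hq⟩
    have haH : (⟨a, Subgroup.subset_closure ha⟩ : H) ∈ T' := ha
    have hqH : (⟨q, Subgroup.subset_closure hq⟩ : H) ∈ T' := hq
    refine ⟨⟨_, hmem _ haH _ hqH⟩, ?_⟩
    apply Subtype.ext
    show a * q * a * (a * q)⁻¹ = q
    have haa := hinv a ha
    have hqq := hinv q hq
    have hb : a * q * a = q * a * q :=
      Cfsg.Agent.Lib.ThreeTransCore.braid_of_cube haa hqq (hcube a ha q hq)
    rw [hb, mul_inv_rev]
    have hai : a⁻¹ = a := inv_eq_of_mul_eq_one_left haa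
    have hqi : q⁻¹ = q := inv_eq_of_mul_eq_one_left hqq
    rw [hai, hqi]
    calc q * a * q * (q * a) = q * a * (q * q) * a := by group
      _ = q * (a * a) := by rw [hqq]; group
      _ = q := by rw [haa, mul_one]
  obtain ⟨m, hm⟩ := hPp.card_orbit (⟨a, ha⟩ : T)
  refine ⟨m, ?_⟩
  rw [horb] at hm
  rw [← hm, Nat.card_congr (Equiv.Set.univ T), Nat.card_coe_set_eq]

end clique

section arith

/-- A power of three times a number congruent to two modulo three is not a square. -/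
theorem not_isSquare_three_pow_mul : ∀ (f m : ℕ), m % 3 = 2 → ¬ IsSquare (3 ^ f * m) := by
  intro f
  induction f using Nat.strong_induction_on with
  | _ f ih =>
    intro m hm ⟨s, hs⟩
    match f, ih, hs with
    | 0, _, hs =>
      simp only [pow_zero, one_mul] at hs
      have h1 : s * s % 3 = 2 := by rw [← hs]; exact hm
      have h2 : s % 3 = 0 ∨ s % 3 = 1 ∨ s % 3 = 2 := by omega
      rcases h2 with h2 | h2 | h2 <;> simp [Nat.mul_mod, h2] at h1
    | 1, _, hs =>
      have h1 : (s * s) % 3 = 0 := by rw [← hs]; omega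
      have h2 : s % 3 = 0 := by
        have h3 : s % 3 = 0 ∨ s % 3 = 1 ∨ s % 3 = 2 := by omega
        rcases h3 with h3 | h3 | h3 <;> simp [Nat.mul_mod, h3] at h1 ⊢
      obtain ⟨t, rfl⟩ := Nat.dvd_of_mod_eq_zero h2
      have h3 : m = 3 * (t * t) := by
        have : 3 * m = 3 * (3 * (t * t)) := by
          calc 3 * m = 3 ^ 1 * m := by ring
            _ = _ := by rw [hs]; ring
        omega
      omega
    | f + 2, ih, hs =>
      have h1 : (s * s) % 3 = 0 := by
        rw [← hs, pow_add]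
        have : 3 ^ f * 3 ^ 2 * m = 3 * (3 ^ f * 3 * m) := by ring
        rw [this]
        omega
      have h2 : s % 3 = 0 := by
        have h3 : s % 3 = 0 ∨ s % 3 = 1 ∨ s % 3 = 2 := by omega
        rcases h3 with h3 | h3 | h3 <;> simp [Nat.mul_mod, h3] at h1 ⊢
      obtain ⟨t, rfl⟩ := Nat.dvd_of_mod_eq_zero h2
      apply ih f (by omega) m hm
      refine ⟨t, ?_⟩
      have : 9 * (3 ^ f * m) = 9 * (t * t) := by
        calc 9 * (3 ^ f * m) = 3 ^ (f + 2) * m := by ring
          _ = _ := by rw [hs]; ring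
      omega

/-- The only square among the numbers in question. -/
theorem pow_eq_of_isSquare {e f : ℕ} (hfe : f < e) (h : IsSquare ((3 ^ f) ^ 2 + 4 * (3 ^ e - 3 ^ f))) :
    e = 1 ∧ f = 0 := by
  have hpow : 3 ^ f ≤ 3 ^ e := Nat.pow_le_pow_right (by norm_num) hfe.le
  obtain ⟨g, rfl⟩ : ∃ g, e = f + g + 1 := ⟨e - f - 1, by omega⟩
  rcases Nat.eq_zero_or_pos f with rfl | hf
  · rcases Nat.eq_zero_or_pos g with rfl | hg
    · exact ⟨rfl, rfl⟩
    · exfalso
      obtain ⟨g', rfl⟩ : ∃ g', g = g' + 1 := ⟨g - 1, by omega⟩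
      have e1 : (3 ^ 0) ^ 2 + 4 * (3 ^ (0 + (g' + 1) + 1) - 3 ^ 0) = 3 ^ 1 * (4 * 3 ^ (g' + 1) - 1) := by
        have hp : 1 ≤ 3 ^ (g' + 1) := Nat.one_le_pow _ _ (by norm_num)
        have e2 : 3 ^ (0 + (g' + 1) + 1) = 3 * 3 ^ (g' + 1) := by ring
        rw [e2]
        simp only [pow_zero, one_pow, pow_one]
        omega
      rw [e1] at h
      apply not_isSquare_three_pow_mul 1 _ _ h
      have e2 : 3 ^ (g' + 1) = 3 * 3 ^ g' := by ring
      have hp : 1 ≤ 3 ^ g' := Nat.one_le_pow _ _ (by norm_num)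
      rw [e2]
      omega
  · exfalso
    obtain ⟨f', rfl⟩ : ∃ f', f = f' + 1 := ⟨f - 1, by omega⟩
    set F := 3 ^ f' with hF
    set Gg := 3 ^ g with hGg
    have hFp : 1 ≤ F := Nat.one_le_pow _ _ (by norm_num)
    have hGp : 1 ≤ Gg := Nat.one_le_pow _ _ (by norm_num)
    have e1 : 3 ^ (f' + 1) = 3 * F := by rw [hF]; ring
    have e3 : 3 ^ (f' + 1 + g + 1) = 3 * F * (3 * Gg) := by rw [hF, hGg]; ring
    have e4 : (3 ^ (f' + 1)) ^ 2 + 4 * (3 ^ (f' + 1 + g + 1) - 3 ^ (f' + 1)) =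
        3 ^ (f' + 1) * (3 * F + 4 * (3 * Gg) - 4) := by
      rw [e3, e1]
      have h1 : 3 * F * (3 * Gg) - 3 * F = 3 * F * (3 * Gg - 1) := by
        rw [Nat.mul_sub, mul_one]
      rw [h1]
      have h2 : 3 * F + 4 * (3 * Gg) - 4 = 3 * F + 4 * (3 * Gg - 1) := by omega
      rw [h2]
      ring
    rw [e4] at h
    apply not_isSquare_three_pow_mul (f' + 1) _ _ h
    omega

end arith

end Cfsg.Agent.Lib.FischerFive19
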