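-- Shared library: parameters of the commuting graph when no commuting triples exist, helper19.
import Mathlib
import Cfsg.Agent.Lib.FischerFive19

set_option autoImplicit false
set_option linter.unusedSimpArgs false
set_option linter.unusedVariables false
set_option linter.unusedSectionVars false

open Cfsg
open Cfsg.Agent.Lib.ThreeTransCore Cfsg.Agent.Lib.FischerRel Cfsg.Agent.Lib.FischerW
open Cfsg.Agent.Lib.FischerBlock Cfsg.Agent.Lib.FischerPrim Cfsg.Agent.Lib.FischerRank19
open Cfsg.Agent.Lib.FischerDx19 Cfsg.Agent.Lib.FischerBasis19 Cfsg.Agent.Lib.FischerFive19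
open Matrix

namespace Cfsg.Agent.Lib.FischerFiveB19

variable {G : Type*} [Group G] [Finite G] {D : Set G}

/-- Common commuting members. -/
def Ee (D : Set G) (p q : G) : Set G := {z | z ∈ D ∧ Commute p z ∧ Commute q z}

theorem Ee_conj (hD : IsThreeTranspositionClass D) (p q g : G) :
    Ee D (g * p * g⁻¹) (g * q * g⁻¹) = conjB (Ee D p q) g := by
  ext z
  rw [mem_conjB_iff]
  constructor
  · rintro ⟨h1, h2, h3⟩
    refine ⟨?_, ?_, ?_⟩
    · have := conj_mem hD g⁻¹ h1
      simpa using this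
    · rwa [commute_conj_iff] at h2
    · rwa [commute_conj_iff] at h3
  · rintro ⟨h1, h2, h3⟩
    refine ⟨?_, ?_, ?_⟩
    · have := conj_mem hD g h1
      have e : g * (g⁻¹ * z * g) * g⁻¹ = z := by group
      rwa [e] at this
    · rwa [commute_conj_iff]
    · rwa [commute_conj_iff]

theorem RSet_conj_eq (hD : IsThreeTranspositionClass D) (p g : G) :
    RSet D (g * p * g⁻¹) = conjB (RSet D p) g := by
  ext z
  rw [mem_conjB_iff, mem_RSet_conj hD]

theorem RSet_ncard (S : Setup D) {p q : G} (hp : p ∈ D) (hq : q ∈ D) :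
    (RSet D p).ncard = (RSet D q).ncard := by
  obtain ⟨g, rfl⟩ := exists_conj S.hD hp hq
  rw [RSet_conj_eq S.hD, ncard_conjB]

theorem Ee_ncard (S : Setup D) {p q p' q' : G} (hp : p ∈ D) (hq : q ∈ D) (hpq : ¬ Commute p q)
    (hp' : p' ∈ D) (hq' : q' ∈ D) (hpq' : ¬ Commute p' q') :
    (Ee D p q).ncard = (Ee D p' q').ncard := by
  obtain ⟨g, rfl, rfl⟩ := exists_pair_not_commute S hp hq hpq hp' hq' hpq'
  rw [Ee_conj S.hD, ncard_conjB]

section matrix

open Classical in
/-- The adjacency matrix of the commuting graph. -/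
noncomputable def adj (D : Set G) [Fintype D] : Matrix D D ℚ :=
  Matrix.of fun p q => if (p : G) ≠ q ∧ Commute (p : G) q then 1 else 0

/-- The all-ones matrix. -/
def allOnes (D : Set G) : Matrix D D ℚ := Matrix.of fun _ _ => 1

open Classical in
theorem ncard_eq_card_filter [Fintype D] (P : G → Prop) :
    ({z | z ∈ D ∧ P z} : Set G).ncard = (Finset.univ.filter (fun r : D => P r)).card := by
  have h : ({z | z ∈ D ∧ P z} : Set G) = ((Finset.univ.filter (fun r : D => P r)).image Subtype.val : Finset G) := by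
    ext z
    simp only [Set.mem_setOf_eq, Finset.coe_image, Finset.coe_filter, Finset.mem_univ, true_and, Set.mem_image]
    constructor
    · rintro ⟨h1, h2⟩
      exact ⟨⟨z, h1⟩, h2, rfl⟩
    · rintro ⟨⟨r, hr⟩, h2, rfl⟩
      exact ⟨hr, h2⟩
  rw [h, Set.ncard_coe_finset, Finset.card_image_of_injective _ Subtype.val_injective]

variable [Fintype D] [DecidableEq D]

/-- Entries of the square of the adjacency matrix. -/
theorem adj_sq_apply (p q : D) :
    (adj D * adj D) p q = (({z | z ∈ D ∧ ((p : G) ≠ z ∧ Commute (p : G) z) ∧ (z ≠ (q : G) ∧ Commute z (q : G))} : Set G).ncard : ℚ) := by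
  classical
  rw [ncard_eq_card_filter (fun z => ((p : G) ≠ z ∧ Commute (p : G) z) ∧ (z ≠ (q : G) ∧ Commute z (q : G)))]
  rw [Matrix.mul_apply, Finset.card_filter]
  push_cast
  apply Finset.sum_congr rfl
  intro r _
  simp only [adj, Matrix.of_apply]
  by_cases h1 : (p : G) ≠ r ∧ Commute (p : G) r <;> by_cases h2 : (r : G) ≠ q ∧ Commute (r : G) q <;> simp [h1, h2]

theorem adj_sq (hnt : ∀ x ∈ D, ∀ y ∈ RSet D x, ∀ z ∈ RSet D x, z ≠ y → ¬ Commute y z) {k μ : ℕ}
    (hk : ∀ p ∈ D, (RSet D p).ncard = k)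
    (hμ : ∀ p ∈ D, ∀ q ∈ D, ¬ Commute p q → (Ee D p q).ncard = μ) :
    adj D * adj D = (k : ℚ) • (1 : Matrix D D ℚ) + (μ : ℚ) • (allOnes D - 1 - adj D) := by
  classical
  ext p q
  rw [adj_sq_apply]
  by_cases hpq : p = q
  · subst hpq
    have hset : ({z | z ∈ D ∧ ((p : G) ≠ z ∧ Commute (p : G) z) ∧ (z ≠ (p : G) ∧ Commute z (p : G))} : Set G) = RSet D p := by
      ext z
      constructor
      · rintro ⟨h1, ⟨h2, h3⟩, h4, h5⟩
        exact ⟨h1, h4, h3⟩
      · rintro ⟨h1, h2, h3⟩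
        exact ⟨h1, ⟨h2.symm, h3⟩, h2, h3.symm⟩
    rw [hset, hk _ p.2]
    simp [adj, allOnes, Matrix.one_apply]
  · have hne : (p : G) ≠ q := fun e => hpq (Subtype.ext e)
    by_cases hc : Commute (p : G) q
    · have hset : ({z | z ∈ D ∧ ((p : G) ≠ z ∧ Commute (p : G) z) ∧ (z ≠ (q : G) ∧ Commute z (q : G))} : Set G) = ∅ := by
        apply Set.eq_empty_of_forall_notMem
        rintro z ⟨h1, ⟨h2, h3⟩, h4, h5⟩
        exact hnt p p.2 q ⟨q.2, hne.symm, hc⟩ z ⟨h1, h2.symm, h3⟩ h4 h5.symm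
      rw [hset]
      simp [adj, allOnes, Matrix.one_apply, hpq, hne, hc]
    · have hset : ({z | z ∈ D ∧ ((p : G) ≠ z ∧ Commute (p : G) z) ∧ (z ≠ (q : G) ∧ Commute z (q : G))} : Set G) = Ee D p q := by
        ext z
        constructor
        · rintro ⟨h1, ⟨h2, h3⟩, h4, h5⟩
          exact ⟨h1, h3, h5.symm⟩
        · rintro ⟨h1, h2, h3⟩
          refine ⟨h1, ⟨?_, h2⟩, ?_, h3.symm⟩
          · rintro rfl
            exact hc h3.symm
          · rintro rfl
            exact hc h2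
      rw [hset, hμ _ p.2 _ q.2 hc]
      simp [adj, allOnes, Matrix.one_apply, hpq, hne, hc]

/-- The row sums of the adjacency matrix. -/
theorem adj_mulVec {k : ℕ} (hk : ∀ p ∈ D, (RSet D p).ncard = k) :
    (adj D).mulVec (fun _ => 1) = fun _ => (k : ℚ) := by
  classical
  ext p
  have hset : RSet D p = {z | z ∈ D ∧ ((p : G) ≠ z ∧ Commute (p : G) z)} := by
    ext z
    constructor
    · rintro ⟨h1, h2, h3⟩
      exact ⟨h1, h2.symm, h3⟩
    · rintro ⟨h1, h2, h3⟩
      exact ⟨h1, h2.symm, h3⟩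
  rw [← hk _ p.2, hset, ncard_eq_card_filter (fun z => ((p : G) ≠ z ∧ Commute (p : G) z))]
  rw [Finset.card_filter, Matrix.mulVec, dotProduct]
  push_cast
  apply Finset.sum_congr rfl
  intro r _
  simp only [adj, Matrix.of_apply, mul_one]

theorem allOnes_mulVec : (allOnes D).mulVec (fun _ => 1) = fun _ => (Fintype.card D : ℚ) := by
  ext p
  simp [allOnes, Matrix.mulVec, dotProduct]

/-- The counting identity. -/
theorem count_identity (hnt : ∀ x ∈ D, ∀ y ∈ RSet D x, ∀ z ∈ RSet D x, z ≠ y → ¬ Commute y z) {k μ : ℕ}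
    (hk : ∀ p ∈ D, (RSet D p).ncard = k)
    (hμ : ∀ p ∈ D, ∀ q ∈ D, ¬ Commute p q → (Ee D p q).ncard = μ) (p : D) :
    (k : ℚ) * k = k + μ * ((Fintype.card D : ℚ) - 1 - k) := by
  have h := congrArg (fun M : Matrix D D ℚ => M.mulVec (fun _ => (1 : ℚ)) p) (adj_sq hnt hk hμ)
  rw [← Matrix.mulVec_mulVec, adj_mulVec hk, Matrix.add_mulVec, Matrix.smul_mulVec, Matrix.smul_mulVec,
    Matrix.sub_mulVec, Matrix.sub_mulVec, allOnes_mulVec, adj_mulVec hk, Matrix.one_mulVec] at h
  have h2 : (adj D).mulVec (fun _ => (k : ℚ)) = fun _ => (k : ℚ) * k := by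
    have : (fun _ : D => (k : ℚ)) = (k : ℚ) • (fun _ => (1 : ℚ)) := by
      ext; simp
    rw [this, Matrix.mulVec_smul, adj_mulVec hk]
    ext; simp
  rw [h2] at h
  simpa using h

/-- The determinant of a scalar plus a multiple of the all-ones matrix. -/
theorem det_scalar_add (d c : ℚ) (hd : d ≠ 0) :
    (d • (1 : Matrix D D ℚ) + c • allOnes D).det = d ^ Fintype.card D * (1 + Fintype.card D * (c / d)) := by
  classical
  have h : d • (1 : Matrix D D ℚ) + c • allOnes D =
      d • (1 + replicateCol Unit (fun _ : D => c / d) * replicateRow Unit (fun _ : D => (1 : ℚ))) := by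
    ext i j
    simp [allOnes, Matrix.add_apply, Matrix.smul_apply, Matrix.mul_apply, Matrix.one_apply]
    field_simp
    split_ifs <;> simp
  rw [h, Matrix.det_smul, Matrix.det_one_add_replicateCol_mul_replicateRow]
  simp [dotProduct]

/-- The square root. -/
theorem isSquare_of_params (hnt : ∀ x ∈ D, ∀ y ∈ RSet D x, ∀ z ∈ RSet D x, z ≠ y → ¬ Commute y z) {k μ : ℕ}
    (hk : ∀ p ∈ D, (RSet D p).ncard = k)
    (hμ : ∀ p ∈ D, ∀ q ∈ D, ¬ Commute p q → (Ee D p q).ncard = μ) (p : D) (hkpos : 0 < k) (hμk : μ < k)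
    (heven : Even (Fintype.card D)) :
    IsSquare ((μ : ℚ) ^ 2 + 4 * ((k : ℚ) - μ)) := by
  classical
  have hid := count_identity hnt hk hμ p
  set d : ℚ := (μ : ℚ) ^ 2 + 4 * ((k : ℚ) - μ) with hd
  have hμk' : (μ : ℚ) < k := by exact_mod_cast hμk
  have hdpos : 0 < d := by
    have : 0 ≤ (μ : ℚ) ^ 2 := by positivity
    rw [hd]
    linarith
  have hkq : (0 : ℚ) < k := by exact_mod_cast hkpos
  have hμq : (0 : ℚ) ≤ μ := by positivity
  have hA := adj_sq hnt hk hμ
  set C : Matrix D D ℚ := (2 : ℚ) • adj D + (μ : ℚ) • 1 with hC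
  have hCC : C * C = d • (1 : Matrix D D ℚ) + (4 * (μ : ℚ)) • allOnes D := by
    rw [hC]
    simp only [add_mul, mul_add, smul_mul_assoc, mul_smul_comm, one_mul, mul_one, smul_smul]
    rw [hA, hd]
    module
  have hdet := congrArg Matrix.det hCC
  rw [Matrix.det_mul, det_scalar_add _ _ hdpos.ne'] at hdet
  obtain ⟨t, ht⟩ := heven
  have hcard : 0 < Fintype.card D := Fintype.card_pos_iff.mpr ⟨p⟩
  obtain ⟨t', rfl⟩ : ∃ t', t = t' + 1 := ⟨t - 1, by omega⟩
  have hn : ((Fintype.card D : ℕ) : ℚ) = 2 * (t' + 1) := by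
    rw [ht]; push_cast; ring
  have hkey : d * (1 + (Fintype.card D : ℚ) * (4 * μ / d)) = (2 * k + μ) ^ 2 := by
    field_simp
    rw [hd]
    linarith [hid]
  have hfac : C.det * C.det = d * (d ^ t' * (2 * k + μ)) ^ 2 := by
    rw [hdet, ht]
    have e : t' + 1 + (t' + 1) = 2 * t' + 2 := by ring
    rw [e, pow_add, pow_mul]
    calc (d ^ 2) ^ t' * d ^ 2 * (1 + ((2 * t' + 2 : ℕ) : ℚ) * (4 * μ / d))
        = (d ^ 2) ^ t' * d * (d * (1 + ((2 * t' + 2 : ℕ) : ℚ) * (4 * μ / d))) := by ring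
      _ = (d ^ 2) ^ t' * d * (2 * k + μ) ^ 2 := by
        have : ((2 * t' + 2 : ℕ) : ℚ) = (Fintype.card D : ℚ) := by
          rw [ht]; push_cast; ring
        rw [this, hkey]
      _ = _ := by ring
  have hne : d ^ t' * (2 * (k : ℚ) + μ) ≠ 0 := by
    apply mul_ne_zero (pow_ne_zero _ hdpos.ne')
    linarith
  refine ⟨C.det / (d ^ t' * (2 * k + μ)), ?_⟩
  field_simp
  have : C.det ^ 2 = C.det * C.det := by ring
  rw [this, hfac]
  ring

end matrix

section params

/-- The parameters `k = 3`, `μ = 1`, `n = 10`. -/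
theorem params (S : Setup D) (hnt : ∀ x ∈ D, ∀ y ∈ RSet D x, ∀ z ∈ RSet D x, z ≠ y → ¬ Commute y z)
    {x y y' : G} (hx : x ∈ D) (hy : y ∈ RSet D x) (hy' : y' ∈ RSet D x) (hne : y ≠ y') :
    (RSet D x).ncard = 3 ∧ (Ee D y y').ncard = 1 ∧ D.ncard = 10 := by
  classical
  have hD := S.hD
  have h3 := hD.1
  haveI : Fintype D := Fintype.ofFinite D
  have hyy' : ¬ Commute y y' := hnt x hx y hy y' hy' hne.symm
  set k := (RSet D x).ncard with hkdef
  set μ := (Ee D y y').ncard with hμdef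
  have hk : ∀ p ∈ D, (RSet D p).ncard = k := fun p hp => RSet_ncard S hp hx
  have hμ : ∀ p ∈ D, ∀ q ∈ D, ¬ Commute p q → (Ee D p q).ncard = μ :=
    fun p hp q hq hpq => Ee_ncard S hp hq hpq hy.1 hy'.1 hyy'
  -- powers of three
  obtain ⟨e, he⟩ : ∃ e, k = 3 ^ e := by
    apply card_clique_pow_three (a := y) hy
    · intro s hs
      exact mul_self_of_mem h3 hs.1
    · intro p hp q hq
      by_cases hpq : p = q
      · subst hpq
        rw [mul_self_of_mem h3 hp.1, one_pow]
      · exact cube_of_not_commute h3 hp.1 hq.1 (hnt x hx p hp q hq (Ne.symm hpq))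
    · intro p hp s hs
      refine ⟨conj_mem hD p hs.1, ?_, ?_⟩
      · intro h
        apply hs.2.1
        have hs' : s = p⁻¹ * x * p := by rw [← h]; group
        rw [hs', mul_assoc, hp.2.2.eq]
        group
      · exact (hp.2.2.mul_right hs.2.2).mul_right hp.2.2.inv_right
  have hxE : x ∈ Ee D y y' := ⟨hx, hy.2.2.symm, hy'.2.2.symm⟩
  have hER : ∀ p ∈ Ee D y y', p ∈ RSet D y := by
    rintro p ⟨h1, h2, h3'⟩
    refine ⟨h1, ?_, h2⟩
    rintro rfl
    exact hyy' h3'.symm
  obtain ⟨f, hf⟩ : ∃ f, μ = 3 ^ f := by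
    apply card_clique_pow_three (a := x) hxE
    · intro s hs
      exact mul_self_of_mem h3 hs.1
    · intro p hp q hq
      by_cases hpq : p = q
      · subst hpq
        rw [mul_self_of_mem h3 hp.1, one_pow]
      · exact cube_of_not_commute h3 hp.1 hq.1 (hnt y hy.1 p (hER p hp) q (hER q hq) (Ne.symm hpq))
    · intro p hp s hs
      refine ⟨conj_mem hD p hs.1, ?_, ?_⟩
      · exact (hp.2.1.mul_right hs.2.1).mul_right hp.2.1.inv_right
      · exact (hp.2.2.mul_right hs.2.2).mul_right hp.2.2.inv_right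
  -- `μ < k`
  obtain ⟨a, ha, hxa⟩ := exists_not_commute hD S.hD2 hx
  have hμk : μ < k := by
    rw [← hμ x hx a ha hxa]
    apply Set.ncard_lt_ncard _ (Set.toFinite _)
    constructor
    · rintro z ⟨h1, h2, h3'⟩
      refine ⟨h1, ?_, h2⟩
      rintro rfl
      exact hxa h3'.symm
    · intro hsub
      obtain ⟨v, hv, hav⟩ := exists_neighbour S hx ha hxa
      exact hav (hsub hv).2.2
  have hfe : f < e := by
    rw [he, hf] at hμk
    exact (Nat.pow_lt_pow_iff_right (by norm_num)).mp hμk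
  have hkpos : 0 < k := by omega
  -- counting
  have hcardD : D.ncard = Fintype.card D := by
    rw [← Nat.card_coe_set_eq, Nat.card_eq_fintype_card]
  have hge : k + 1 ≤ Fintype.card D := by
    rw [← hcardD]
    have hnot : x ∉ RSet D x := fun h => h.2.1 rfl
    have h1 : (insert x (RSet D x)).ncard = k + 1 := Set.ncard_insert_of_notMem hnot (Set.toFinite _)
    rw [← h1]
    apply Set.ncard_le_ncard _ (Set.toFinite _)
    rintro z (rfl | hz)
    · exact hx
    · exact hz.1
  obtain ⟨l, hl⟩ : ∃ l, Fintype.card D = 1 + k + l := ⟨Fintype.card D - 1 - k, by omega⟩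
  have hid := count_identity hnt hk hμ ⟨x, hx⟩
  have hid' : k * k = k + μ * l := by
    rw [hl] at hid
    push_cast at hid
    have : (k : ℚ) * k = k + μ * l := by
      rw [hid]; ring
    exact_mod_cast this
  have hkodd : Odd k := by rw [he]; exact Odd.pow (by decide)
  have hμodd : Odd μ := by rw [hf]; exact Odd.pow (by decide)
  have hleven : Even l := by
    have h1 : Even (μ * l) := by
      have h2 : k * k = k + μ * l := hid'
      have h3' : Odd (k * k) := hkodd.mul hkodd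
      by_contra hn
      rw [Nat.not_even_iff_odd] at hn
      have := hkodd.add_odd hn
      rw [← h2] at this
      exact (Nat.not_even_iff_odd.mpr h3') this
    exact (Nat.even_mul.mp h1).resolve_left (Nat.not_even_iff_odd.mpr hμodd)
  have hneven : Even (Fintype.card D) := by
    rw [hl]
    have : Even (1 + k) := odd_one.add_odd hkodd
    exact this.add hleven
  have hsq := isSquare_of_params hnt hk hμ ⟨x, hx⟩ hkpos hμk hneven
  have hsq' : IsSquare ((3 ^ f) ^ 2 + 4 * (3 ^ e - 3 ^ f)) := by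
    rw [← Rat.isSquare_natCast_iff]
    have hle : 3 ^ f ≤ 3 ^ e := Nat.pow_le_pow_right (by norm_num) hfe.le
    push_cast [hle]
    rw [he, hf] at hsq
    push_cast at hsq
    exact hsq
  obtain ⟨rfl, rfl⟩ := pow_eq_of_isSquare hfe hsq'
  have hk3 : k = 3 := by rw [he]; norm_num
  have hμ1 : μ = 1 := by rw [hf]; norm_num
  refine ⟨hk3, hμ1, ?_⟩
  rw [hcardD, hl, hk3]
  rw [hk3, hμ1] at hid'
  omega

end params

end Cfsg.Agent.Lib.FischerFiveB19
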