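-- Shared library: recognition of the symmetric group of degree five, helper19.
import Mathlib
import Cfsg.Agent.Lib.FischerFiveB19
import Cfsg.Agent.Lib.PSL2Solv
import Cfsg.Agent.Lib.PCore

set_option autoImplicit false
set_option linter.unusedSimpArgs false
set_option linter.unusedVariables false
set_option linter.unusedSectionVars false

open Cfsg
open Cfsg.Agent.Lib.ThreeTransCore Cfsg.Agent.Lib.FischerRel Cfsg.Agent.Lib.FischerW
open Cfsg.Agent.Lib.FischerBlock Cfsg.Agent.Lib.FischerPrim Cfsg.Agent.Lib.FischerRank19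
open Cfsg.Agent.Lib.FischerDx19 Cfsg.Agent.Lib.FischerBasis19 Cfsg.Agent.Lib.FischerFive19
open Cfsg.Agent.Lib.FischerFiveB19

namespace Cfsg.Agent.Lib.FischerFiveC19

variable {G : Type*} [Group G] [Finite G] {D : Set G}

theorem mem_cent {s g : G} : g ∈ Subgroup.centralizer ({s} : Set G) ↔ Commute s g := by
  rw [Subgroup.mem_centralizer_iff]
  constructor
  · intro h
    exact h s (by simp)
  · rintro h t rfl
    exact h

/-- Orbit-stabiliser in the form of an inequality. -/
theorem card_le_mul_of_conj {A : Subgroup G} {S : Set G} {s : G} (hS : ∀ a ∈ A, a * s * a⁻¹ ∈ S) :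
    Nat.card A ≤ S.ncard * Nat.card ↥(A ⊓ Subgroup.centralizer ({s} : Set G)) := by
  classical
  let f : A → S := fun a => ⟨a * s * (a : G)⁻¹, hS a a.2⟩
  let σ : S → A := fun t => if h : ∃ a, f a = t then h.choose else 1
  have hσ : ∀ a, f (σ (f a)) = f a := by
    intro a
    have h : ∃ b, f b = f a := ⟨a, rfl⟩
    simp only [σ, dif_pos h]
    exact h.choose_spec
  have hk : ∀ a : A, (((σ (f a))⁻¹ * a : A) : G) ∈ A ⊓ Subgroup.centralizer ({s} : Set G) := by
    intro a
    refine Subgroup.mem_inf.mpr ⟨((σ (f a))⁻¹ * a : A).2, mem_cent.mpr ?_⟩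
    have h1 := congrArg Subtype.val (hσ a)
    have h2 : (σ (f a) : G) * s * ((σ (f a) : A) : G)⁻¹ = a * s * (a : G)⁻¹ := h1
    show s * (((σ (f a) : A) : G)⁻¹ * a) = ((σ (f a) : A) : G)⁻¹ * a * s
    have h3 : s = ((σ (f a) : A) : G)⁻¹ * (a * s * (a : G)⁻¹) * (σ (f a) : A) := by
      rw [← h2]; group
    calc s * (((σ (f a) : A) : G)⁻¹ * a) = ((σ (f a) : A) : G)⁻¹ * (a * s * (a : G)⁻¹) * (σ (f a) : A) * (((σ (f a) : A) : G)⁻¹ * a) := by
          rw [← h3]
      _ = _ := by group
  let F : A → S × ↥(A ⊓ Subgroup.centralizer ({s} : Set G)) := fun a => (f a, ⟨_, hk a⟩)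
  have hF : Function.Injective F := by
    intro a b hab
    have h1 : f a = f b := congrArg Prod.fst hab
    have h2 := congrArg (fun p => ((p.2 : ↥(A ⊓ Subgroup.centralizer ({s} : Set G))) : G)) hab
    simp only [F] at h2
    rw [h1] at h2
    apply Subtype.ext
    simpa using h2
  have := Nat.card_le_card_of_injective F hF
  rwa [Nat.card_prod, Nat.card_coe_set_eq] at this

/-- The size of the class divides the order of the group. -/
theorem ncard_dvd_card (hD : IsThreeTranspositionClass D) {x : G} (hx : x ∈ D) : D.ncard ∣ Nat.card G := by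
  let act : MulAction G D :=
    { smul := fun g p => ⟨g * p * g⁻¹, conj_mem hD g p.2⟩
      one_smul := by
        intro p
        apply Subtype.ext
        show (1 : G) * p * (1 : G)⁻¹ = p
        group
      mul_smul := by
        intro g h p
        apply Subtype.ext
        show (g * h) * p * (g * h)⁻¹ = g * (h * p * h⁻¹) * g⁻¹
        group }
  have horb : MulAction.orbit G (⟨x, hx⟩ : D) = Set.univ := by
    apply Set.eq_univ_of_forall
    rintro ⟨y, hy⟩
    obtain ⟨g, hg⟩ := exists_conj hD hx hy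
    exact ⟨g, Subtype.ext hg⟩
  have h := MulAction.index_stabilizer G (⟨x, hx⟩ : D)
  rw [horb, Set.ncard_univ, Nat.card_coe_set_eq] at h
  rw [← h]
  exact Subgroup.index_dvd_card _

section main

variable (S : Setup D) (hnt : ∀ x ∈ D, ∀ y ∈ RSet D x, ∀ z ∈ RSet D x, z ≠ y → ¬ Commute y z)
  (hk3 : ∀ p ∈ D, (RSet D p).ncard = 3)
  (hμ1 : ∀ p ∈ D, ∀ q ∈ D, ¬ Commute p q → (Ee D p q).ncard = 1)
include S hnt hk3 hμ1

/-- The structure of `D_x`. -/
theorem rset_eq_three {x y y₁ : G} (hx : x ∈ D) (hy : y ∈ RSet D x) (hy₁ : y₁ ∈ RSet D x) (hne : y₁ ≠ y) :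
    RSet D x = {y, y₁, y * y₁ * y} := by
  have hD := S.hD
  have h3 := hD.1
  have hyy₁ : ¬ Commute y y₁ := hnt x hx y hy y₁ hy₁ hne
  have hyi : y⁻¹ = y := inv_of_mem h3 hy.1
  have hmem : y * y₁ * y ∈ RSet D x := by
    refine ⟨?_, ?_, ?_⟩
    · have := conj_mem hD y hy₁.1
      rwa [hyi] at this
    · intro h
      apply hy₁.2.1
      have e : y₁ = y * (y * y₁ * y) * y := by
        have hyy := mul_self_of_mem h3 hy.1
        calc y₁ = (y * y) * y₁ * (y * y) := by rw [hyy]; group
          _ = _ := by group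
      rw [e, h]
      calc y * x * y = y * (x * y) := by group
        _ = y * (y * x) := by rw [hy.2.2.eq]
        _ = (y * y) * x := by group
        _ = x := by rw [mul_self_of_mem h3 hy.1, one_mul]
    · exact (hy.2.2.mul_right hy₁.2.2).mul_right hy.2.2
  have h1 : y * y₁ * y ≠ y := by
    intro h
    apply hne
    have hyy := mul_self_of_mem h3 hy.1
    have e : y₁ = y * (y * y₁ * y) * y := by
      calc y₁ = (y * y) * y₁ * (y * y) := by rw [hyy]; group
        _ = _ := by group
    rw [e, h, hyy, one_mul]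
  have h2 : y * y₁ * y ≠ y₁ := by
    intro h
    apply hyy₁
    show y * y₁ = y₁ * y
    have hyy := mul_self_of_mem h3 hy.1
    calc y * y₁ = (y * y₁ * y) * y := by rw [mul_assoc (y * y₁), hyy, mul_one]
      _ = _ := by rw [h]
  symm
  apply Set.eq_of_subset_of_ncard_le
  · rintro z (rfl | rfl | rfl)
    · exact hy
    · exact hy₁
    · exact hmem
  · rw [hk3 x hx, Set.ncard_eq_three.mpr ⟨y, y₁, y * y₁ * y, hne.symm, h1.symm, h2.symm, rfl⟩]
  · exact Set.toFinite _

/-- An element commuting with `x, y, x₁, y₁` commutes with all of `D`. -/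
theorem commute_all {x y x₁ y₁ h : G} (hx : x ∈ D) (hy : y ∈ RSet D x) (hx₁ : x₁ ∈ RSet D y) (hy₁ : y₁ ∈ RSet D x)
    (hx₁ne : x₁ ≠ x) (hy₁ne : y₁ ≠ y) (hhx : Commute h x) (hhy : Commute h y) (hhx₁ : Commute h x₁)
    (hhy₁ : Commute h y₁) {a : G} (ha : a ∈ D) : Commute h a := by
  have hD := S.hD
  have h3 := hD.1
  have hxRy : x ∈ RSet D y := ⟨hx, hy.2.1.symm, hy.2.2.symm⟩
  have hRx := rset_eq_three S hnt hk3 hμ1 hx hy hy₁ hy₁ne
  have hRy := rset_eq_three S hnt hk3 hμ1 hy.1 hxRy hx₁ hx₁ne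
  have hallx : ∀ t ∈ RSet D x, Commute h t := by
    intro t ht
    rw [hRx] at ht
    rcases ht with rfl | rfl | rfl
    · exact hhy
    · exact hhy₁
    · exact (hhy.mul_right hhy₁).mul_right hhy
  have hally : ∀ t ∈ RSet D y, Commute h t := by
    intro t ht
    rw [hRy] at ht
    rcases ht with rfl | rfl | rfl
    · exact hhx
    · exact hhx₁
    · exact (hhx.mul_right hhx₁).mul_right hhx
  by_cases hax : a = x
  · rw [hax]; exact hhx
  by_cases hca : Commute x a
  · exact hallx a ⟨ha, hax, hca⟩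
  by_cases hay : a = y
  · rw [hay]; exact hhy
  by_cases hcb : Commute y a
  · exact hally a ⟨ha, hay, hcb⟩
  -- the generic case
  have hay' : ¬ Commute a y := fun hc => hcb hc.symm
  have hax' : ¬ Commute a x := fun hc => hca hc.symm
  obtain ⟨p, hp⟩ := Set.ncard_eq_one.mp (hμ1 a ha y hy.1 hay')
  obtain ⟨q, hq⟩ := Set.ncard_eq_one.mp (hμ1 a ha x hx hax')
  have hpm : p ∈ Ee D a y := by rw [hp]; rfl
  have hqm : q ∈ Ee D a x := by rw [hq]; rfl
  have hpy : p ≠ y := by
    rintro rfl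
    exact hay' hpm.2.1
  have hqx : q ≠ x := by
    rintro rfl
    exact hax' hqm.2.1
  have hpR : p ∈ RSet D y := ⟨hpm.1, hpy, hpm.2.2⟩
  have hqR : q ∈ RSet D x := ⟨hqm.1, hqx, hqm.2.2⟩
  have hpx : p ≠ x := by
    rintro rfl
    exact hax' hpm.2.1
  have hqy : q ≠ y := by
    rintro rfl
    exact hay' hqm.2.1
  have hqy' : ¬ Commute q y := fun hc => hnt x hx y hy q hqR hqy hc.symm
  have hpq : ¬ Commute p q := by
    intro hc
    obtain ⟨r, hr⟩ := Set.ncard_eq_one.mp (hμ1 q hqR.1 y hy.1 hqy')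
    have h1 : p ∈ Ee D q y := ⟨hpm.1, hc.symm, hpm.2.2⟩
    have h2 : x ∈ Ee D q y := ⟨hx, hqR.2.2.symm, hy.2.2.symm⟩
    rw [hr] at h1 h2
    exact hpx (h1.trans h2.symm)
  obtain ⟨r, hr⟩ := Set.ncard_eq_one.mp (hμ1 p hpR.1 q hqR.1 hpq)
  have h1 : a ∈ Ee D p q := ⟨ha, hpm.2.1.symm, hqm.2.1.symm⟩
  have hhp := hally p hpR
  have hhq := hallx q hqR
  have h2 : h * a * h⁻¹ ∈ Ee D p q := by
    refine ⟨conj_mem hD h ha, ?_, ?_⟩
    · have := (commute_conj_conj_iff h p a).mpr hpm.2.1.symm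
      have e : h * p * h⁻¹ = p := by rw [hhp.eq]; group
      rwa [e] at this
    · have := (commute_conj_conj_iff h q a).mpr hqm.2.1.symm
      have e : h * q * h⁻¹ = q := by rw [hhq.eq]; group
      rwa [e] at this
  rw [hr] at h1 h2
  have h4 : h * a * h⁻¹ = a := h2.trans h1.symm
  show h * a = a * h
  calc h * a = (h * a * h⁻¹) * h := by group
    _ = a * h := by rw [h4]

/-- The group is the symmetric group of degree five. -/
theorem iso_sym5 (hsol : ∀ N : Subgroup G, N.Normal → Group.IsSolvable ↥N → N = ⊥) (h10 : D.ncard = 10)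
    {x y : G} (hx : x ∈ D) (hy : y ∈ RSet D x) : Nonempty (G ≃* Equiv.Perm (Fin 5)) := by
  have hD := S.hD
  have h3 := hD.1
  have hcen : Subgroup.center G = ⊥ := hsol _ inferInstance
    (Group.isSolvable_of_comm (fun a b => Subtype.ext (Subgroup.mem_center_iff.mp a.2 b.1).symm))
  have hxRy : x ∈ RSet D y := ⟨hx, hy.2.1.symm, hy.2.2.symm⟩
  obtain ⟨y₁, hy₁, hy₁ne⟩ := Set.exists_ne_of_one_lt_ncard (s := RSet D x) (by rw [hk3 x hx]; norm_num) y
  obtain ⟨x₁, hx₁, hx₁ne⟩ := Set.exists_ne_of_one_lt_ncard (s := RSet D y) (by rw [hk3 y hy.1]; norm_num) x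
  -- the bound on the order
  have hb1 : Nat.card (⊤ : Subgroup G) ≤ D.ncard * Nat.card ↥((⊤ : Subgroup G) ⊓ Subgroup.centralizer ({x} : Set G)) :=
    card_le_mul_of_conj (fun a _ => conj_mem hD a hx)
  rw [top_inf_eq, Nat.card_congr Subgroup.topEquiv.toEquiv, h10] at hb1
  set A₁ := Subgroup.centralizer ({x} : Set G) with hA₁
  have hb2 : Nat.card A₁ ≤ (RSet D x).ncard * Nat.card ↥(A₁ ⊓ Subgroup.centralizer ({y} : Set G)) := by
    apply card_le_mul_of_conj
    intro a ha
    have ha' : Commute x a := mem_cent.mp ha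
    have e : x = a * x * a⁻¹ := by rw [ha'.symm.eq]; group
    refine ⟨conj_mem hD a hy.1, ?_, ?_⟩
    · intro h
      apply hy.2.1
      rw [e] at h
      simpa using h
    · rw [e]
      exact (commute_conj_conj_iff a x y).mpr hy.2.2
  rw [hk3 x hx] at hb2
  set A₂ := A₁ ⊓ Subgroup.centralizer ({y} : Set G) with hA₂
  have hb3 : Nat.card A₂ ≤ (RSet D y \ {x}).ncard * Nat.card ↥(A₂ ⊓ Subgroup.centralizer ({x₁} : Set G)) := by
    apply card_le_mul_of_conj
    intro a ha
    have ha1 : Commute x a := mem_cent.mp ha.1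
    have ha2 : Commute y a := mem_cent.mp ha.2
    have e : x = a * x * a⁻¹ := by rw [ha1.symm.eq]; group
    have e' : y = a * y * a⁻¹ := by rw [ha2.symm.eq]; group
    refine ⟨⟨conj_mem hD a hx₁.1, ?_, ?_⟩, ?_⟩
    · intro h
      apply hx₁.2.1
      rw [e'] at h
      simpa using h
    · rw [e']
      exact (commute_conj_conj_iff a y x₁).mpr hx₁.2.2
    · intro h
      apply hx₁ne
      have h' : a * x₁ * a⁻¹ = a * x * a⁻¹ := by
        rw [← e]; exact h
      simpa using h'
  rw [Set.ncard_sdiff_singleton_of_mem hxRy, hk3 y hy.1] at hb3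
  set A₃ := A₂ ⊓ Subgroup.centralizer ({x₁} : Set G) with hA₃
  have hb4 : Nat.card A₃ ≤ (RSet D x \ {y}).ncard * Nat.card ↥(A₃ ⊓ Subgroup.centralizer ({y₁} : Set G)) := by
    apply card_le_mul_of_conj
    intro a ha
    have ha1 : Commute x a := mem_cent.mp ha.1.1
    have ha2 : Commute y a := mem_cent.mp ha.1.2
    have e : x = a * x * a⁻¹ := by rw [ha1.symm.eq]; group
    have e' : y = a * y * a⁻¹ := by rw [ha2.symm.eq]; group
    refine ⟨⟨conj_mem hD a hy₁.1, ?_, ?_⟩, ?_⟩
    · intro h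
      apply hy₁.2.1
      rw [e] at h
      simpa using h
    · rw [e]
      exact (commute_conj_conj_iff a x y₁).mpr hy₁.2.2
    · intro h
      apply hy₁ne
      have h' : a * y₁ * a⁻¹ = a * y * a⁻¹ := by
        rw [← e']; exact h
      simpa using h'
  rw [Set.ncard_sdiff_singleton_of_mem hy, hk3 x hx] at hb4
  set A₄ := A₃ ⊓ Subgroup.centralizer ({y₁} : Set G) with hA₄
  have hbot : A₄ = ⊥ := by
    rw [eq_bot_iff]
    intro h hh
    have hh1 : Commute x h := mem_cent.mp hh.1.1.1
    have hh2 : Commute y h := mem_cent.mp hh.1.1.2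
    have hh3 : Commute x₁ h := mem_cent.mp hh.1.2
    have hh4 : Commute y₁ h := mem_cent.mp hh.2
    have hall : ∀ a ∈ D, Commute h a := fun a ha =>
      commute_all S hnt hk3 hμ1 hx hy hx₁ hy₁ hx₁ne hy₁ne hh1.symm hh2.symm hh3.symm hh4.symm ha
    have hc : h ∈ Subgroup.center G := by
      rw [Subgroup.mem_center_iff]
      intro g
      exact (commute_of_forall hD hall g).symm.eq
    rw [hcen] at hc
    exact hc
  have hb5 : Nat.card A₄ = 1 := by
    rw [hbot]; exact Subgroup.card_bot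
  have hle : Nat.card G ≤ 120 := by
    have e2 : 3 - 1 = 2 := rfl
    rw [hb5] at hb4
    simp only [e2] at hb3 hb4
    nlinarith
  -- the embedded `S₄`
  obtain ⟨u, hu, hxu, hyu⟩ := exists_common_not_commute hD S.hblk S.hD2 hx hy.1 hy.2.1.symm hy.2.2
  obtain ⟨φ, hφ, h01, h12, h23⟩ := exists_sym4 h3 hx hu hy.1 hy.2.1.symm hy.2.2 hxu (fun hc => hyu hc.symm)
  let T : Subgroup G := φ.range
  have hTcard : Nat.card T = 24 := by
    rw [← Nat.card_congr (MonoidHom.ofInjective hφ).toEquiv, Nat.card_perm]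
    simp [Nat.factorial]
  have hd24 : 24 ∣ Nat.card G := by
    rw [← hTcard]
    exact Subgroup.card_subgroup_dvd_card T
  have hd10 : 10 ∣ Nat.card G := by
    rw [← h10]
    exact ncard_dvd_card hD hx
  have hd120 : 120 ∣ Nat.card G := by
    have : Nat.lcm 24 10 ∣ Nat.card G := Nat.lcm_dvd hd24 hd10
    have e : Nat.lcm 24 10 = 120 := by decide
    rwa [e] at this
  have hcard : Nat.card G = 120 := by
    have hpos : 0 < Nat.card G := Nat.card_pos
    exact le_antisymm hle (Nat.le_of_dvd hpos hd120)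
  have hidx : T.index = 5 := by
    have h := Subgroup.card_mul_index T
    rw [hTcard, hcard] at h
    omega
  -- the permutation action
  let ρ : G →* Equiv.Perm (G ⧸ T) := MulAction.toPermHom G (G ⧸ T)
  have hker : ρ.ker = ⊥ := by
    apply hsol _ inferInstance
    have hle' : ρ.ker ≤ T := by
      rw [← Subgroup.normalCore_eq_ker]
      exact Subgroup.normalCore_le T
    have : Group.IsSolvable (Equiv.Perm (Fin 4)) := Cfsg.Agent.Lib.PSL2Solv.isSolvable_perm4
    have hTs : Group.IsSolvable T :=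
      Group.isSolvable_of_surjective (f := φ.rangeRestrict) φ.rangeRestrict_surjective
    exact Group.isSolvable_of_isSolvable_injective (f := Subgroup.inclusion hle') (Subgroup.inclusion_injective hle')
  have hρ : Function.Injective ρ := (MonoidHom.ker_eq_bot_iff ρ).mp hker
  have hq : Nat.card (G ⧸ T) = 5 := hidx
  let e : (G ⧸ T) ≃ Fin 5 := Finite.equivFinOfCardEq hq
  let ψ : G →* Equiv.Perm (Fin 5) := e.permCongrHom.toMonoidHom.comp ρ
  have hψ : Function.Injective ψ := e.permCongrHom.injective.comp hρ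
  have hbij : Function.Bijective ψ := by
    rw [Nat.bijective_iff_injective_and_card]
    refine ⟨hψ, ?_⟩
    rw [hcard, Nat.card_perm]
    simp [Nat.factorial]
  exact ⟨MulEquiv.ofBijective ψ hbij⟩

end main

/-- Everything together: a `W`-pair forces the symmetric group of degree five. -/
theorem iso_of_wpair (S : Setup D) (hsol : ∀ N : Subgroup G, N.Normal → Group.IsSolvable ↥N → N = ⊥)
    {x y y' : G} (hx : x ∈ D) (h : WPair D x y y') : Nonempty (G ≃* Equiv.Perm (Fin 5)) := by
  have hW := wpair_all S hx h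
  have hnt : ∀ x ∈ D, ∀ y ∈ RSet D x, ∀ z ∈ RSet D x, z ≠ y → ¬ Commute y z :=
    fun x hx y hy z hz hne hc => no_triple S hW hx hy hz hne hc
  have hne : y ≠ y' := by
    rintro rfl
    exact h.2.2.1 (Commute.refl _)
  obtain ⟨h1, h2, h3⟩ := params S hnt hx h.1 h.2.1 hne
  have hk3 : ∀ p ∈ D, (RSet D p).ncard = 3 := fun p hp => by
    rw [RSet_ncard S hp hx, h1]
  have hyy' : ¬ Commute y y' := h.2.2.1
  have hμ1 : ∀ p ∈ D, ∀ q ∈ D, ¬ Commute p q → (Ee D p q).ncard = 1 := fun p hp q hq hpq => by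
    rw [Ee_ncard S hp hq hpq h.1.1 h.2.1.1 hyy', h2]
  exact iso_sym5 S hnt hk3 hμ1 hsol h3 hx h.1

/-- From a non-central odd core of `⟨D_x⟩` to a `W`-pair. -/
theorem exists_wpair_of_oddCore (hD : IsThreeTranspositionClass D) {x : G} (hx : x ∈ D)
    (h : ¬ oddCore ↥(Subgroup.closure (RSet D x)) ≤ Subgroup.center ↥(Subgroup.closure (RSet D x))) :
    ∃ y y', WPair D x y y' := by
  have h3 := hD.1
  set K := Subgroup.closure (RSet D x) with hK
  have hKx : ∀ k ∈ K, Commute x k := by
    intro k hk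
    induction hk using Subgroup.closure_induction with
    | mem y hy => exact hy.2.2
    | one => exact Commute.one_right x
    | mul u v _ _ hu hv => exact hu.mul_right hv
    | inv u _ hu => exact hu.inv_right
  have hodd := Cfsg.Agent.Lib.PCore.not_dvd_card_pPrimeCore (G := K) 2 (hp := ⟨Nat.prime_two⟩)
  have hno2 : ∀ t ∈ oddCore K, t * t = 1 → t = 1 := by
    intro t ht htt
    by_contra hne
    apply hodd
    have hord : orderOf (⟨t, ht⟩ : oddCore K) = 2 := by
      apply orderOf_eq_prime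
      · apply Subtype.ext
        simpa [pow_two] using htt
      · intro hc
        exact hne (congrArg Subtype.val hc)
    have hdvd := orderOf_dvd_natCard (⟨t, ht⟩ : oddCore K)
    rw [hord] at hdvd
    exact hdvd
  obtain ⟨o, ho, hoc⟩ := Set.not_subset.mp h
  obtain ⟨y, hy, hoy⟩ : ∃ y ∈ RSet D x, ¬ Commute (o : G) y := by
    by_contra hall
    push Not at hall
    apply hoc
    rw [SetLike.mem_coe, Subgroup.mem_center_iff]
    rintro ⟨k, hk⟩
    apply Subtype.ext
    show k * (o : G) = o * k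
    have : Commute (o : G) k := by
      induction hk using Subgroup.closure_induction with
      | mem y hy => exact hall y hy
      | one => exact Commute.one_right _
      | mul u v _ _ hu hv => exact hu.mul_right hv
      | inv u _ hu => exact hu.inv_right
    exact this.symm.eq
  -- the partner
  set y' : G := o * y * (o : G)⁻¹ with hy'def
  have hyK : y ∈ K := Subgroup.subset_closure hy
  have hoxc : Commute x (o : G) := hKx o o.2
  have hy'R : y' ∈ RSet D x := by
    refine ⟨conj_mem hD _ hy.1, ?_, ?_⟩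
    · intro hc
      apply hy.2.1
      have : y = (o : G)⁻¹ * x * o := by
        rw [← hc, hy'def]; group
      rw [this, mul_assoc, hoxc.eq]
      group
    · exact (hoxc.mul_right hy.2.2).mul_right hoxc.inv_right
  have hne : y ≠ y' := by
    intro hc
    apply hoy
    show (o : G) * y = y * o
    calc (o : G) * y = y' * o := by rw [hy'def]; group
      _ = y * o := by rw [← hc]
  have hyinv : y⁻¹ = y := inv_of_mem h3 hy.1
  have hy'K : y' ∈ K := mul_mem (mul_mem o.2 hyK) (inv_mem o.2)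
  have hprod : (⟨y, hyK⟩ : K) * ⟨y', hy'K⟩ ∈ oddCore K := by
    have e : (⟨y, hyK⟩ : K) * ⟨y', hy'K⟩ = ((⟨y, hyK⟩ : K) * o * (⟨y, hyK⟩ : K)⁻¹) * o⁻¹ := by
      apply Subtype.ext
      show y * (o * y * (o : G)⁻¹) = y * o * y⁻¹ * (o : G)⁻¹
      rw [hyinv]
      group
    rw [e]
    exact mul_mem ((inferInstance : (oddCore K).Normal).conj_mem _ ho _) (inv_mem ho)
  -- main lemma
  have key : ∀ (p q : G) (hpK : p ∈ RSet D x) (hqK : q ∈ RSet D x),
      (⟨p, Subgroup.subset_closure hpK⟩ : K) * ⟨q, Subgroup.subset_closure hqK⟩ ∈ oddCore K →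
      ¬ Commute p q → ∀ z ∈ RSet D x, z ≠ p → Commute p z → Commute q z := by
    intro p q hp hq hpq hnc z hz hzp hpz
    by_contra hqz
    obtain ⟨φ, hφ, h01, h12, h23⟩ := exists_sym4 h3 hz.1 hq.1 hp.1 hzp hpz.symm (fun hc => hqz hc.symm)
      (fun hc => hnc hc.symm)
    set c : K := (⟨p, Subgroup.subset_closure hp⟩ : K) * ⟨q, Subgroup.subset_closure hq⟩ with hc
    set zK : K := ⟨z, Subgroup.subset_closure hz⟩ with hzK
    have ht : zK * c * zK⁻¹ * c ∈ oddCore K :=
      mul_mem ((inferInstance : (oddCore K).Normal).conj_mem _ hpq _) hpq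
    have hval : ((zK * c * zK⁻¹ * c : K) : G) = φ (Equiv.swap 0 3 * Equiv.swap 1 2) := by
      have e : (Equiv.swap (0 : Fin 4) 3 * Equiv.swap 1 2) =
          Equiv.swap 0 1 * (Equiv.swap 2 3 * Equiv.swap 1 2) * (Equiv.swap 0 1)⁻¹ * (Equiv.swap 2 3 * Equiv.swap 1 2) := by
        decide
      rw [e]
      simp only [map_mul, map_inv, h01, h12, h23]
      rfl
    have htt : (zK * c * zK⁻¹ * c) * (zK * c * zK⁻¹ * c) = 1 := by
      apply Subtype.ext
      show ((zK * c * zK⁻¹ * c : K) : G) * ((zK * c * zK⁻¹ * c : K) : G) = 1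
      rw [hval, ← map_mul]
      have : (Equiv.swap (0 : Fin 4) 3 * Equiv.swap 1 2) * (Equiv.swap 0 3 * Equiv.swap 1 2) = 1 := by decide
      rw [this, map_one]
    have := hno2 _ ht htt
    have h1 := congrArg Subtype.val this
    rw [hval] at h1
    have h2 : φ (Equiv.swap 0 3 * Equiv.swap 1 2) = φ 1 := by
      rw [map_one]; exact h1
    have := hφ h2
    exact absurd this (by decide)
  have hnc : ¬ Commute y y' := by
    intro hc
    have ht := hno2 _ hprod (by
      apply Subtype.ext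
      show y * y' * (y * y') = 1
      calc y * y' * (y * y') = (y * y) * (y' * y') := by
            rw [mul_assoc y y', ← mul_assoc y' y y', hc.symm.eq]; group
        _ = 1 := by rw [mul_self_of_mem h3 hy.1, mul_self_of_mem h3 hy'R.1, one_mul])
    have h1 : y * y' = 1 := congrArg Subtype.val ht
    apply hne
    calc y = y * (y' * y') := by rw [mul_self_of_mem h3 hy'R.1, mul_one]
      _ = (y * y') * y' := by group
      _ = y' := by rw [h1, one_mul]
  have hprod' : (⟨y', hy'K⟩ : K) * ⟨y, hyK⟩ ∈ oddCore K := by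
    have e : (⟨y', hy'K⟩ : K) * ⟨y, hyK⟩ = ((⟨y, hyK⟩ : K) * ⟨y', hy'K⟩)⁻¹ := by
      apply Subtype.ext
      show y' * y = (y * y')⁻¹
      rw [mul_inv_rev, hyinv, inv_of_mem h3 hy'R.1]
    rw [e]
    exact inv_mem hprod
  refine ⟨y, y', hy, hy'R, hnc, ?_⟩
  intro z hz hzy hzy'
  exact ⟨key y y' hy hy'R hprod hnc z hz hzy, key y' y hy'R hy hprod' (fun hc => hnc hc.symm) z hz hzy'⟩

end Cfsg.Agent.Lib.FischerFiveC19
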