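import Mathlib
import Cfsg.Prelude.Def_MonsterType
import Cfsg.Agent.Lib.LargeCent
import Cfsg.Agent.Lib.LargePair
import Cfsg.Agent.Lib.LargeQuot
import Cfsg.Agent.Lib.ExtraDual
import Cfsg.Agent.Lib.ExtraSqForm
import Cfsg.Agent.S5408

/-!
# Monster type: elementwise dictionary between `Q` and the Leech lattice modulo 2.

`Rep ψ v x` says that the lattice vector `v` represents the element `x` of `Q` (an element of `G`).
The subgroup `Wt e Q'` of `Co0` is the preimage of the image in `Co1` of the centralizer of `z` in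
the conjugate `Q'` of `Q`.
-/

set_option autoImplicit false

open Cfsg
open Cfsg.Agent.Lib.LargeExtra Cfsg.Agent.Lib.LargePair

namespace Cfsg.Agent.Lib.MonsterLocal

variable {G : Type*} [Group G] {z : G}

/-- The centralizer of `z`. -/
abbrev CC (z : G) : Subgroup G := Subgroup.centralizer ({z} : Set G)

/-- The subgroup `Q` inside `G`. -/
abbrev Q0 (Q : Subgroup (CC z)) : Subgroup G := Q.map (CC z).subtype

section defs

variable (Q : Subgroup (CC z)) [Q.Normal] (e : (CC z) ⧸ Q ≃* Spor.Co1)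

/-- `C → Co1`. -/
def phi : (CC z) →* Spor.Co1 := e.toMonoidHom.comp (QuotientGroup.mk' Q)

/-- `Co0 → Co1`. -/
def mkCo : Co0 →* Spor.Co1 := QuotientGroup.mk' (Subgroup.center Co0)

variable {Q e}

theorem phi_apply (h : CC z) : phi Q e h = e (QuotientGroup.mk h) := rfl

theorem phi_surjective : Function.Surjective (phi Q e) := by
  intro y
  obtain ⟨r, hr⟩ := e.surjective y
  obtain ⟨h, rfl⟩ := QuotientGroup.mk_surjective r
  exact ⟨h, hr⟩

theorem phi_eq_one_iff {h : CC z} : phi Q e h = 1 ↔ h ∈ Q := by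
  rw [phi_apply, map_eq_one_iff e e.injective]
  exact QuotientGroup.eq_one_iff h

theorem mkCo_surjective : Function.Surjective mkCo := QuotientGroup.mk'_surjective _

theorem mkCo_eq_one_iff {g : Co0} : mkCo g = 1 ↔ g ∈ Subgroup.center Co0 :=
  QuotientGroup.eq_one_iff g

theorem exists_lift (g : Co0) : ∃ h : CC z, phi Q e h = mkCo g := phi_surjective _

theorem exists_lift' (h : CC z) : ∃ g : Co0, mkCo g = phi Q e h := mkCo_surjective _

theorem phi_ker : (phi Q e).ker = Q := by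
  ext h
  rw [MonoidHom.mem_ker, phi_eq_one_iff]

end defs

/-- The element `x` of `G` lies in `Q` and the lattice vector `v` maps to its class. -/
def Rep {Q : Subgroup (CC z)} (ψ : leechLattice → Q ⧸ Subgroup.center Q) (v : leechLattice) (x : G) : Prop :=
  ∃ (hc : x ∈ CC z) (hq : (⟨x, hc⟩ : CC z) ∈ Q), ψ v = QuotientGroup.mk ⟨⟨x, hc⟩, hq⟩

/-- All the hypotheses. -/
structure Data (z : G) (Q : Subgroup (CC z)) [Q.Normal] (e : (CC z) ⧸ Q ≃* Spor.Co1)
    (ψ : leechLattice → Q ⧸ Subgroup.center Q) : Prop where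
  set : IsExtraspecialCentralizerSetting z Q 12
  iso : IsLeechModTwoIso Q e ψ

variable {Q : Subgroup (CC z)} [Q.Normal] {e : (CC z) ⧸ Q ≃* Spor.Co1}
  {ψ : leechLattice → Q ⧸ Subgroup.center Q}

namespace Data

variable (D : Data z Q e ψ)
include D

theorem order : orderOf z = 2 := D.set.1

theorem extra_map : IsExtraspecial 2 ↥(Q0 Q) :=
  Cfsg.Agent.Lib.LargeCent.isExtraspecial_of_equiv
    (Q.equivMapOfInjective (CC z).subtype (CC z).subtype_injective) D.set.2.2.1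

theorem card_Q0 : Nat.card ↥(Q0 Q) = 2 ^ 25 := by
  rw [Subgroup.card_map_of_injective (CC z).subtype_injective, D.set.2.2.2.1]

variable [Finite G]

theorem setting : Setting (Q0 Q) z := by
  have hF' : (generalizedFittingSubgroup ↥(CC z)).map (CC z).subtype = Q0 Q := by
    rw [D.set.2.1]
  exact (Cfsg.Agent.Lib.LargeCent.of_centralizer D.order hF' D.extra_map).2.2.2

theorem card32 : 32 ≤ Nat.card ↥(Q0 Q) := by
  rw [D.card_Q0]; norm_num

omit [Finite G] in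
theorem mem_Q0_iff {x : G} : x ∈ Q0 Q ↔ ∃ (hc : x ∈ CC z), (⟨x, hc⟩ : CC z) ∈ Q := by
  constructor
  · rintro ⟨⟨y, hc⟩, hq, rfl⟩
    exact ⟨hc, hq⟩
  · rintro ⟨hc, hq⟩
    exact ⟨⟨x, hc⟩, hq, rfl⟩

omit [Finite G] in
theorem exists_rep {x : G} (hx : x ∈ Q0 Q) : ∃ v, Rep ψ v x := by
  obtain ⟨hc, hq⟩ := D.mem_Q0_iff.1 hx
  obtain ⟨v, hv⟩ := D.iso.2.1 (QuotientGroup.mk ⟨⟨x, hc⟩, hq⟩)
  exact ⟨v, hc, hq, hv⟩

omit D [Finite G] in
theorem _root_.Cfsg.Agent.Lib.MonsterLocal.Rep.mem {v : leechLattice} {x : G} (h : Rep ψ v x) : x ∈ Q0 Q := by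
  obtain ⟨hc, hq, -⟩ := h
  exact ⟨⟨x, hc⟩, hq, rfl⟩

omit [Finite G] in
/-- Conjugation. -/
theorem rep_conj {v : leechLattice} {x : G} (h : Rep ψ v x) {g : Co0} {c : CC z}
    (hg : mkCo g = phi Q e c) :
    Rep ψ ((g : Equiv.Perm leechLattice) v) ((c : G) * x * (c : G)⁻¹) := by
  obtain ⟨hc, hq, hv⟩ := h
  have h1 := D.iso.2.2.2 c g hg v ⟨⟨x, hc⟩, hq⟩ hv
  have hq' := (inferInstance : Q.Normal).conj_mem (⟨x, hc⟩ : CC z) hq c
  exact ⟨(c * ⟨x, hc⟩ * c⁻¹ : CC z).2, hq', h1⟩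

omit [Finite G] in
theorem rep_add {v w : leechLattice} {x y : G} (h : Rep ψ v x) (h' : Rep ψ w y) :
    Rep ψ (v + w) (x * y) := by
  obtain ⟨hc, hq, hv⟩ := h
  obtain ⟨hc', hq', hw⟩ := h'
  refine ⟨(CC z).mul_mem hc hc', Q.mul_mem hq hq', ?_⟩
  rw [D.iso.1, hv, hw]
  rfl

theorem mem_center_iff {x : Q} : x ∈ Subgroup.center Q ↔ ((x : CC z) : G) = 1 ∨ ((x : CC z) : G) = z := by
  have hS := D.setting
  constructor
  · intro hx
    have hxm : ((x : CC z) : G) ∈ Q0 Q := ⟨_, x.2, rfl⟩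
    apply hS.extra.central _ hxm
    rintro y ⟨⟨y', hy'⟩, hyQ, rfl⟩
    have := Subgroup.mem_center_iff.1 hx ⟨⟨y', hy'⟩, hyQ⟩
    exact (congrArg (fun t : Q => ((t : CC z) : G)) this).symm
  · rintro (h | h)
    · have : x = 1 := Subtype.ext (Subtype.ext h)
      rw [this]
      exact Subgroup.one_mem _
    · rw [Subgroup.mem_center_iff]
      rintro y
      apply Subtype.ext
      apply Subtype.ext
      show ((y : CC z) : G) * ((x : CC z) : G) = ((x : CC z) : G) * ((y : CC z) : G)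
      rw [h]
      exact hS.extra.cen _ ⟨_, y.2, rfl⟩

theorem rep_eq {v : leechLattice} {x y : G} (h : Rep ψ v x) (h' : Rep ψ v y) :
    y = x ∨ y = x * z := by
  obtain ⟨hc, hq, hv⟩ := h
  obtain ⟨hc', hq', hw⟩ := h'
  have h1 : (QuotientGroup.mk ⟨⟨x, hc⟩, hq⟩ : Q ⧸ Subgroup.center Q) =
      QuotientGroup.mk ⟨⟨y, hc'⟩, hq'⟩ := hv.symm.trans hw
  have h2 := QuotientGroup.eq.1 h1
  rcases (D.mem_center_iff).1 h2 with h3 | h3
  · left
    have h4 : x⁻¹ * y = 1 := h3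
    exact (inv_mul_eq_one.1 h4).symm
  · right
    have h4 : x⁻¹ * y = z := h3
    rw [← h4]
    group

theorem rep_mul_z {v : leechLattice} {x : G} (h : Rep ψ v x) : Rep ψ v (x * z) := by
  obtain ⟨hc, hq, hv⟩ := h
  have hS := D.setting
  obtain ⟨hzc, hzq⟩ := D.mem_Q0_iff.1 hS.extra.mem
  refine ⟨(CC z).mul_mem hc hzc, Q.mul_mem hq hzq, ?_⟩
  rw [hv]
  apply QuotientGroup.eq.2
  rw [D.mem_center_iff]
  right
  show x⁻¹ * (x * z) = z
  group

/-- `x` is central iff `v` is a double. -/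
theorem rep_central_iff {v : leechLattice} {x : G} (h : Rep ψ v x) :
    (x = 1 ∨ x = z) ↔ ∃ u : leechLattice, v = u + u := by
  obtain ⟨hc, hq, hv⟩ := h
  rw [← D.iso.2.2.1 v, hv, QuotientGroup.eq_one_iff, D.mem_center_iff]

omit [Finite G] in
theorem psi_zero : ψ 0 = 1 := (D.iso.2.2.1 0).2 ⟨0, by simp⟩

omit [Finite G] in
theorem psi_neg (v : leechLattice) : ψ (-v) = (ψ v)⁻¹ := by
  have := D.iso.1 (-v) v
  rw [neg_add_cancel, D.psi_zero] at this
  exact eq_inv_of_mul_eq_one_left this.symm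

omit [Finite G] in
theorem rep_congr {v : leechLattice} {x : G} (h : Rep ψ v x) (u : leechLattice) :
    Rep ψ (v + (u + u)) x := by
  obtain ⟨hc, hq, hv⟩ := h
  refine ⟨hc, hq, ?_⟩
  rw [D.iso.1, hv, (D.iso.2.2.1 (u + u)).2 ⟨u, rfl⟩, mul_one]

omit [Finite G] in
/-- Two representatives of one element are congruent. -/
theorem rep_cong {v w : leechLattice} {x : G} (h : Rep ψ v x) (h' : Rep ψ w x) :
    ∃ u : leechLattice, v = w + (u + u) := by
  obtain ⟨hc, hq, hv⟩ := h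
  obtain ⟨hc', hq', hw⟩ := h'
  have h1 : ψ (v + -w) = 1 := by
    rw [D.iso.1, D.psi_neg, hv, hw, mul_inv_cancel]
  obtain ⟨u, hu⟩ := (D.iso.2.2.1 _).1 h1
  refine ⟨u, ?_⟩
  rw [← hu]
  abel

/-- Elements of `Q` outside the centre are conjugate to their products with `z`, inside `Q`. -/
theorem exists_flip {x : G} (hx : x ∈ Q0 Q) (h1 : x ≠ 1) (hz : x ≠ z) :
    ∃ (t : CC z), (t : G) ∈ Q0 Q ∧ phi Q e t = 1 ∧ (t : G) * x * (t : G)⁻¹ = x * z := by
  obtain ⟨t, ht, h⟩ := D.setting.extra.exists_not_comm hx h1 hz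
  obtain ⟨hc, hq⟩ := D.mem_Q0_iff.1 ht
  exact ⟨⟨t, hc⟩, ht, phi_eq_one_iff.2 hq, h⟩

/-- An element of `Co0` taking the class of `x` to that of `x'` lifts to an element of the centralizer
of `z` conjugating `x` to `x'`, when `x` is not central in `Q`. -/
theorem exists_conj_of_rep {v v' : leechLattice} {x x' : G} (h : Rep ψ v x) (h' : Rep ψ v' x')
    (h1 : x ≠ 1) (hz : x ≠ z) {g : Co0} {u : leechLattice}
    (hg : (g : Equiv.Perm leechLattice) v = v' + (u + u)) :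
    ∃ c : CC z, phi Q e c = mkCo g ∧ (c : G) * x * (c : G)⁻¹ = x' := by
  obtain ⟨c, hc⟩ := exists_lift (Q := Q) (e := e) (z := z) g
  have h2 := D.rep_conj h hc.symm
  rw [hg] at h2
  have h3 := D.rep_congr h' u
  have hmem := h2.mem
  have hne1 : (c : G) * x * (c : G)⁻¹ ≠ 1 := by
    intro h4
    apply h1
    have : x = (c : G)⁻¹ * ((c : G) * x * (c : G)⁻¹) * (c : G) := by group
    rw [this, h4]
    group
  have hcz : (c : G) * z = z * (c : G) := Subgroup.mem_centralizer_singleton_iff.1 c.2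
  have hnez : (c : G) * x * (c : G)⁻¹ ≠ z := by
    intro h4
    apply hz
    have : x = (c : G)⁻¹ * ((c : G) * x * (c : G)⁻¹) * (c : G) := by group
    rw [this, h4, mul_assoc, ← hcz]
    group
  rcases D.rep_eq h2 h3 with h4 | h4
  · exact ⟨c, hc, h4.symm⟩
  · obtain ⟨t, -, ht1, ht2⟩ := D.exists_flip hmem hne1 hnez
    refine ⟨t * c, by rw [map_mul, ht1, one_mul, hc], ?_⟩
    rw [h4, ← ht2]
    push_cast
    group

/-- If `g` fixes the class of `x`, non-central in `Q`, it lifts to the centralizer of `x`. -/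
theorem exists_lift_comm {v : leechLattice} {x : G} (h : Rep ψ v x)
    (h1 : x ≠ 1) (hz : x ≠ z) {g : Co0} {u : leechLattice}
    (hg : (g : Equiv.Perm leechLattice) v = v + (u + u)) :
    ∃ c : CC z, phi Q e c = mkCo g ∧ (c : G) * x = x * (c : G) := by
  obtain ⟨c, hc, hcx⟩ := D.exists_conj_of_rep h h h1 hz hg
  exact ⟨c, hc, comm_of_conj_eq hcx⟩

/-- Conversely, elements lifting to the centralizer of `x` fix its class. -/
theorem fix_of_comm {v : leechLattice} {x : G} (h : Rep ψ v x) {g : Co0} {c : CC z}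
    (hc : phi Q e c = mkCo g) (hcx : (c : G) * x = x * (c : G)) :
    ∃ u : leechLattice, (g : Equiv.Perm leechLattice) v = v + (u + u) := by
  have h2 := D.rep_conj h hc.symm
  rw [conj_eq_of_comm hcx] at h2
  exact D.rep_cong h2 h

/-- The pair attached to a conjugate of `z` in `Q`. -/
theorem pair {g : G} (hgQ : g * z * g⁻¹ ∈ Q0 Q) (hne : g * z * g⁻¹ ≠ z) :
    PairS (Q0 Q) ((Q0 Q).map (MulAut.conj g).toMonoidHom) z (g * z * g⁻¹) g :=
  PairS.exists_of D.setting D.card32 hgQ hne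

end Data

section W

variable (e)

/-- The image in `Co1` of the centralizer of `z` in `Q'`. -/
def W1 (Q' : Subgroup G) : Subgroup Spor.Co1 := (Q'.subgroupOf (CC z)).map (phi Q e)

/-- The preimage in `Co0` of `W1`. -/
def Wt (Q' : Subgroup G) : Subgroup Co0 := (W1 e Q').comap mkCo

variable {e}

theorem mem_Wt {Q' : Subgroup G} {y : Co0} :
    y ∈ Wt e Q' ↔ ∃ r : CC z, (r : G) ∈ Q' ∧ phi Q e r = mkCo y := by
  constructor
  · rintro ⟨r, hr, h⟩
    exact ⟨r, hr, h⟩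
  · rintro ⟨r, hr, h⟩
    exact ⟨r, hr, h⟩

variable [Finite G] {Q' : Subgroup G} {s g : G}

/-- Elements of `Wt` fix the class of `s`. -/
theorem Wt_fix (D : Data z Q e ψ) (P : PairS (Q0 Q) Q' z s g) {v : leechLattice} (hv : Rep ψ v s)
    {y : Co0} (hy : y ∈ Wt e Q') :
    ∃ u : leechLattice, (y : Equiv.Perm leechLattice) v = v + (u + u) := by
  obtain ⟨r, hr, h⟩ := mem_Wt.1 hy
  exact D.fix_of_comm hv h (P.hS'.extra.cen _ hr)

/-- `Wt` is normalized by the stabilizer of the class of `s`. -/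
theorem Wt_norm (D : Data z Q e ψ) (P : PairS (Q0 Q) Q' z s g) {v : leechLattice} (hv : Rep ψ v s)
    {x y : Co0} {u : leechLattice} (hx : (x : Equiv.Perm leechLattice) v = v + (u + u))
    (hy : y ∈ Wt e Q') : x * y * x⁻¹ ∈ Wt e Q' := by
  obtain ⟨r, hr, h⟩ := mem_Wt.1 hy
  obtain ⟨c, hc, hcs⟩ := D.exists_lift_comm hv P.s1 P.hne hx
  refine mem_Wt.2 ⟨c * r * c⁻¹, ?_, ?_⟩
  · exact P.hS'.nQ _ hcs _ hr
  · rw [map_mul, map_mul, map_inv, hc, h, map_mul, map_mul, map_inv]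

theorem mem_center_of_phi (D : Data z Q e ψ) {x : Co0} {r : CC z} (h : phi Q e r = mkCo x)
    (hr : (r : G) ∈ Q0 Q) : x ∈ Subgroup.center Co0 := by
  rw [← mkCo_eq_one_iff, ← h, phi_eq_one_iff]
  obtain ⟨hc, hq⟩ := D.mem_Q0_iff.1 hr
  exact hq

/-- `Wt` is abelian modulo the centre. -/
theorem Wt_comm (D : Data z Q e ψ) (P : PairS (Q0 Q) Q' z s g) {x y : Co0} (hx : x ∈ Wt e Q')
    (hy : y ∈ Wt e Q') : x * y * x⁻¹ * y⁻¹ ∈ Subgroup.center Co0 := by
  obtain ⟨r, hr, h⟩ := mem_Wt.1 hx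
  obtain ⟨r', hr', h'⟩ := mem_Wt.1 hy
  have h1 : phi Q e (r * r' * r⁻¹ * r'⁻¹) = mkCo (x * y * x⁻¹ * y⁻¹) := by
    simp only [map_mul, map_inv, h, h']
  apply mem_center_of_phi D h1
  rcases P.hS'.extra.comm _ hr _ hr' with h2 | h2
  · have : (((r * r' * r⁻¹ * r'⁻¹ : CC z)) : G) = 1 := h2
    rw [this]; exact Subgroup.one_mem _
  · have : (((r * r' * r⁻¹ * r'⁻¹ : CC z)) : G) = s := h2
    rw [this]; exact P.hsQ

/-- `Wt` has exponent two modulo the centre. -/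
theorem Wt_sq (D : Data z Q e ψ) (P : PairS (Q0 Q) Q' z s g) {x : Co0} (hx : x ∈ Wt e Q') :
    x ^ 2 ∈ Subgroup.center Co0 := by
  obtain ⟨r, hr, h⟩ := mem_Wt.1 hx
  have h1 : phi Q e (r ^ 2) = mkCo (x ^ 2) := by
    simp only [map_pow, h]
  apply mem_center_of_phi D h1
  rcases P.hS'.extra.sq _ hr with h2 | h2
  · have : (((r ^ 2 : CC z)) : G) = 1 := h2
    rw [this]; exact Subgroup.one_mem _
  · have : (((r ^ 2 : CC z)) : G) = s := h2
    rw [this]; exact P.hsQ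

/-- The order of the centralizer of `z` in `Q'`. -/
theorem card_Q'_inf (D : Data z Q e ψ) (P : PairS (Q0 Q) Q' z s g) :
    Nat.card ↥(Q' ⊓ CC z) = 2 ^ 24 := by
  have hcardQ' : Nat.card Q' = 2 ^ 25 := by
    rw [P.hQ', Subgroup.card_map_of_injective (MulAut.conj g).injective, D.card_Q0]
  have hz2 : z ^ 2 = 1 := by rw [pow_two]; exact P.zz
  have hs2 : s ^ 2 = 1 := by rw [pow_two]; exact P.ss
  set A := Cfsg.Agent.Lib.KleinTools.kleinOf z s hz2 hs2 P.zs with hA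
  have hAle : A ≤ Q' := by
    intro x hx
    rcases Cfsg.Agent.Lib.KleinTools.mem_kleinOf.1 hx with rfl | rfl | rfl | rfl
    · exact Q'.one_mem
    · exact P.hzQ'
    · exact P.hS'.extra.mem
    · exact Q'.mul_mem P.hzQ' P.hS'.extra.mem
  have hsA : s ∈ A := Cfsg.Agent.Lib.KleinTools.mem_kleinOf.2 (Or.inr (Or.inr (Or.inl rfl)))
  have hzA : z ∈ A := Cfsg.Agent.Lib.KleinTools.mem_kleinOf.2 (Or.inr (Or.inl rfl))
  have hK : IsKleinFour A := Cfsg.Agent.Lib.KleinTools.isKleinFour_kleinOf hz2 hs2 P.zs P.z1 P.s1 P.hne.symm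
  have hc4 : Nat.card A = 4 := IsKleinFour.card_four
  have h1 := Cfsg.Agent.Lib.ExtraDual.card_mul_centralizer P.hS'.extra hAle hsA
  rw [hc4, hcardQ'] at h1
  have h2 : Q' ⊓ Subgroup.centralizer (A : Set G) = Q' ⊓ CC z := by
    ext x
    simp only [Subgroup.mem_inf, and_congr_right_iff]
    intro hx
    constructor
    · intro h3
      rw [Subgroup.mem_centralizer_singleton_iff]
      exact (Subgroup.mem_centralizer_iff.1 h3 z hzA).symm
    · intro h3
      rw [Subgroup.mem_centralizer_singleton_iff] at h3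
      rw [Subgroup.mem_centralizer_iff]
      intro a ha
      rcases Cfsg.Agent.Lib.KleinTools.mem_kleinOf.1 ha with rfl | rfl | rfl | rfl
      · simp
      · exact h3.symm
      · exact (P.hS'.extra.cen x hx).symm
      · have h4 := P.hS'.extra.cen x hx
        calc z * s * x = z * (s * x) := by group
          _ = z * (x * s) := by rw [h4]
          _ = (z * x) * s := by group
          _ = (x * z) * s := by rw [h3]
          _ = x * (z * s) := by group
  rw [h2] at h1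
  omega

/-- The order of `W1`. -/
theorem card_W1 (D : Data z Q e ψ) (P : PairS (Q0 Q) Q' z s g) :
    Nat.card (W1 e Q') * Nat.card ↥(Q0 Q ⊓ Q') = 2 ^ 24 := by
  have h1 := Cfsg.Agent.Lib.LargeQuot.card_map_mul (phi Q e) (Q'.subgroupOf (CC z))
  rw [phi_ker] at h1
  set T := Q'.subgroupOf (CC z) with hT
  have h2 : Nat.card T = 2 ^ 24 := by
    rw [← card_Q'_inf D P]
    have h3 : T.map (CC z).subtype = Q' ⊓ CC z := by
      ext x
      constructor
      · rintro ⟨y, hy, rfl⟩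
        exact ⟨hy, y.2⟩
      · rintro ⟨hx, hc⟩
        exact ⟨⟨x, hc⟩, hx, rfl⟩
    rw [← h3, Subgroup.card_map_of_injective (CC z).subtype_injective]
  have h3 : Nat.card ↥(Q.subgroupOf T) = Nat.card ↥(Q0 Q ⊓ Q') := by
    have h4 : ((Q.subgroupOf T).map T.subtype).map (CC z).subtype = Q0 Q ⊓ Q' := by
      ext x
      constructor
      · rintro ⟨_, ⟨y, hy, rfl⟩, rfl⟩
        exact ⟨⟨_, hy, rfl⟩, y.2⟩
      · rintro ⟨⟨y, hy, rfl⟩, hx⟩
        exact ⟨y, ⟨⟨y, hx⟩, hy, rfl⟩, rfl⟩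
    rw [← h4, Subgroup.card_map_of_injective (CC z).subtype_injective,
      Subgroup.card_map_of_injective T.subtype_injective]
  rw [← h2, ← h1, h3]
  rfl

/-- `Q ∩ Q'` has order at most `2 ^ 13`. -/
theorem card_inter_le (D : Data z Q e ψ) (P : PairS (Q0 Q) Q' z s g) :
    Nat.card ↥(Q0 Q ⊓ Q') ≤ 2 ^ 13 := by
  have h1 := Cfsg.Agent.Lib.ExtraDual.card_mul_centralizer P.hS.extra (A := Q0 Q ⊓ Q') inf_le_left
    P.z_mem_inter
  rw [D.card_Q0] at h1
  have h2 : Q0 Q ⊓ Q' ≤ Q0 Q ⊓ Subgroup.centralizer ((Q0 Q ⊓ Q' : Subgroup G) : Set G) := by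
    intro x hx
    refine ⟨hx.1, Subgroup.mem_centralizer_iff.2 ?_⟩
    intro y hy
    exact P.inter_comm hy.1 hy.2 hx.1 hx.2
  have h3 := Subgroup.card_le_of_le h2
  by_contra h4
  have h5 : 2 ^ 14 ≤ Nat.card ↥(Q0 Q ⊓ Q') := by
    have : 2 ^ 13 < Nat.card ↥(Q0 Q ⊓ Q') := not_le.1 h4
    have hdvd : Nat.card ↥(Q0 Q ⊓ Q') ∣ 2 ^ 25 := by
      rw [← D.card_Q0]
      exact Subgroup.card_dvd_of_le inf_le_left
    obtain ⟨k, -, hk⟩ := (Nat.dvd_prime_pow Nat.prime_two).1 hdvd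
    rw [hk] at this ⊢
    have hk' : 13 < k := (Nat.pow_lt_pow_iff_right (by norm_num)).1 this
    exact Nat.pow_le_pow_right (by norm_num) hk'
  have h6 : 2 ^ 14 * 2 ^ 14 ≤ 2 * 2 ^ 25 := by
    calc 2 ^ 14 * 2 ^ 14 ≤ Nat.card ↥(Q0 Q ⊓ Q') * Nat.card ↥(Q0 Q ⊓ Subgroup.centralizer ((Q0 Q ⊓ Q' : Subgroup G) : Set G)) :=
          Nat.mul_le_mul h5 (h5.trans h3)
      _ = 2 * 2 ^ 25 := h1
  norm_num at h6

/-- `W1` has order at least `2 ^ 11`. -/
theorem card_W1_ge (D : Data z Q e ψ) (P : PairS (Q0 Q) Q' z s g) :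
    2 ^ 11 ≤ Nat.card (W1 e Q') := by
  have h1 := card_W1 D P
  have h2 := card_inter_le D P
  by_contra h3
  have h4 : Nat.card (W1 e Q') * Nat.card ↥(Q0 Q ⊓ Q') < 2 ^ 11 * 2 ^ 13 := by
    have h5 : 0 < Nat.card ↥(Q0 Q ⊓ Q') := Nat.card_pos
    calc _ ≤ Nat.card (W1 e Q') * 2 ^ 13 := Nat.mul_le_mul_left _ h2
      _ < 2 ^ 11 * 2 ^ 13 := Nat.mul_lt_mul_of_pos_right (not_le.1 h3) (by norm_num)
  rw [h1] at h4
  norm_num at h4

/-- `Wt` does not lie in the centre. -/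
theorem exists_Wt_not_center (D : Data z Q e ψ) (P : PairS (Q0 Q) Q' z s g) :
    ∃ y ∈ Wt e Q', y ∉ Subgroup.center Co0 := by
  by_contra h
  have h : ∀ y ∈ Wt e Q', y ∈ Subgroup.center Co0 := by
    intro y hy
    by_contra h'
    exact h ⟨y, hy, h'⟩
  have h1 : W1 e Q' = ⊥ := by
    rw [eq_bot_iff]
    intro x hx
    obtain ⟨y, rfl⟩ := mkCo_surjective x
    have : y ∈ Wt e Q' := hx
    exact (Subgroup.mem_bot).2 (mkCo_eq_one_iff.2 (h y this))
  have h2 := card_W1_ge D P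
  rw [h1, Subgroup.card_bot] at h2
  norm_num at h2

end W

end Cfsg.Agent.Lib.MonsterLocal
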