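import Mathlib
import Cfsg.Agent.Lib.MonsterLocal
import Cfsg.Agent.Lib.Co0Frame
import Cfsg.Agent.Lib.Co0Stab2
import Cfsg.Agent.Lib.LeechClasses
import Cfsg.Agent.Lib.LeechFourForm
import Cfsg.Agent.Lib.LeechCong

/-!
# Monster type: conjugates of `z` in `Q`, from the transitivity of `Co0` on short vectors.
-/

set_option autoImplicit false

open Cfsg
open Cfsg.Agent.Lib.LargeExtra Cfsg.Agent.Lib.LargePair Cfsg.Agent.Lib.MonsterLocal
open Cfsg.Agent.Lib.LeechFourForm Cfsg.Agent.Lib.ExtraSqForm Cfsg.Agent.Lib.Co0Frame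
open Cfsg.Agent.Lib.Co0Stab2

namespace Cfsg.Agent.Lib.MonsterMain

/-- The transitivity statements used. -/
structure CoTrans : Prop where
  t32 : ∀ v w : leechLattice, sqNorm (v : GolayPt → ℤ) = 32 → sqNorm (w : GolayPt → ℤ) = 32 →
    ∃ g : Co0, g • v = w
  t48 : ∀ v w : leechLattice, sqNorm (v : GolayPt → ℤ) = 48 → sqNorm (w : GolayPt → ℤ) = 48 →
    ∃ g : Co0, g • v = w
  t64 : ∀ v w : leechLattice, sqNorm (v : GolayPt → ℤ) = 64 → sqNorm (w : GolayPt → ℤ) = 64 →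
    ∃ g : Co0, ∃ u ∈ leechLattice, ((g • v : leechLattice) : GolayPt → ℤ) - (w : GolayPt → ℤ) = 2 • u

theorem CoTrans.t64' (T : CoTrans) {v w : leechLattice} (hv : sqNorm (v : GolayPt → ℤ) = 64)
    (hw : sqNorm (w : GolayPt → ℤ) = 64) :
    ∃ (g : Co0) (u : leechLattice), (g : Equiv.Perm leechLattice) v = w + (u + u) := by
  obtain ⟨g, u, hu, h⟩ := T.t64 v w hv hw
  refine ⟨g, ⟨u, hu⟩, ?_⟩
  apply Subtype.ext
  have h1 : ((g • v : leechLattice) : GolayPt → ℤ) = (w : GolayPt → ℤ) + 2 • u := by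
    rw [← h]
    abel
  rw [two_nsmul] at h1
  exact h1

/-- Every class not zero has a representative of length `32`, `48` or `64`. -/
theorem exists_short {v : leechLattice} (hv : ¬ ∃ u : leechLattice, v = u + u) :
    ∃ w u : leechLattice, v = w + (u + u) ∧ (sqNorm (w : GolayPt → ℤ) = 32 ∨
      sqNorm (w : GolayPt → ℤ) = 48 ∨ sqNorm (w : GolayPt → ℤ) = 64) := by
  obtain ⟨y, hy, hn, z, hz, hc⟩ := Cfsg.Agent.Lib.LeechClasses.main_lattice.2 v v.2
  have hv' : v = ⟨y, hy⟩ + (⟨z, hz⟩ + ⟨z, hz⟩) := by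
    apply Subtype.ext
    show (v : GolayPt → ℤ) = y + (z + z)
    rw [two_nsmul] at hc
    rw [← hc]
    abel
  refine ⟨⟨y, hy⟩, ⟨z, hz⟩, hv', ?_⟩
  have hy0 : y ≠ 0 := by
    rintro rfl
    apply hv
    refine ⟨⟨z, hz⟩, ?_⟩
    rw [hv']
    apply Subtype.ext
    show 0 + (z + z) = z + z
    simp
  have h1 := Cfsg.Agent.Lib.LeechCong.min_norm' hy hy0
  obtain ⟨k, hk⟩ := Cfsg.Agent.Lib.Leech.sqNorm_dvd hy
  show sqNorm y = 32 ∨ sqNorm y = 48 ∨ sqNorm y = 64
  omega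

section forms

variable {q : leechLattice → ZMod 2} {b : leechLattice → leechLattice → ZMod 2}

theorem q_congr (hf : IsInvForm q b) (v u : leechLattice) : q (v + (u + u)) = q v := by
  rw [hf.q_add, hf.q_double, hf.b_double]
  simp

theorem sqNorm_vec {i j : GolayPt} (hij : i ≠ j) : sqNorm (vec i j : GolayPt → ℤ) = 32 := by
  show sqNorm (vf i j) = 32
  unfold sqNorm
  have h1 : ∀ k, vf i j k ^ 2 = (if k = i then 16 else 0) + (if k = j then 16 else 0) := by
    intro k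
    simp only [vf]
    by_cases h2 : k = i
    · subst h2
      simp [hij]
    · by_cases h3 : k = j
      · subst h3
        simp [h2]
      · simp [h2, h3]
  simp only [h1, Finset.sum_add_distrib, Finset.sum_ite_eq', Finset.mem_univ, if_true]
  norm_num

theorem vec_self_eq (i : GolayPt) : vec i i = Cfsg.Agent.S0398.e8 i := by
  apply Subtype.ext
  funext k
  show vf i i k = _
  rw [Cfsg.Agent.S0398.e8_apply]
  simp only [vf]
  split_ifs <;> norm_num

theorem q32 (hf : IsInvForm q b) (T : CoTrans) {w : leechLattice} (hw : sqNorm (w : GolayPt → ℤ) = 32) :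
    q w = 0 := by
  have hne : (none : GolayPt) ≠ some 0 := by decide
  obtain ⟨g, hg⟩ := T.t32 w (vec none (some 0)) hw (sqNorm_vec hne)
  have h1 := hf.inv g w
  have h2 : (g : Equiv.Perm leechLattice) w = vec none (some 0) := hg
  rw [h2, hf.q_vec] at h1
  exact h1.symm

theorem q64 (hf : IsInvForm q b) (T : CoTrans) {w : leechLattice} (hw : sqNorm (w : GolayPt → ℤ) = 64) :
    q w = 0 := by
  obtain ⟨g, u, hg⟩ := T.t64' hw (w := vec none none) (by rw [vec_self_eq]; exact sqNorm_e8 _)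
  have h1 := hf.inv g w
  rw [hg, q_congr hf, hf.q_vec] at h1
  exact h1.symm

/-- The form is not zero on vectors of length `48`. -/
theorem q48_aux (hf : IsInvForm q b) (T : CoTrans) (hb : ∃ v w, b v w ≠ 0) {w : leechLattice}
    (hw : sqNorm (w : GolayPt → ℤ) = 48) : q w ≠ 0 := by
  intro hq
  have h48 : ∀ w' : leechLattice, sqNorm (w' : GolayPt → ℤ) = 48 → q w' = 0 := by
    intro w' hw'
    obtain ⟨g, hg⟩ := T.t48 w' w hw' hw
    have h1 := hf.inv g w'
    have h2 : (g : Equiv.Perm leechLattice) w' = w := hg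
    rw [h2, hq] at h1
    exact h1.symm
  have hall : ∀ v, q v = 0 := by
    intro v
    by_cases hv : ∃ u : leechLattice, v = u + u
    · obtain ⟨u, rfl⟩ := hv
      exact hf.q_double u
    · obtain ⟨w', u, rfl, h1 | h1 | h1⟩ := exists_short hv
      · rw [q_congr hf, q32 hf T h1]
      · rw [q_congr hf, h48 _ h1]
      · rw [q_congr hf, q64 hf T h1]
  obtain ⟨v, w', h⟩ := hb
  apply h
  have h1 := hf.q_add v w'
  rw [hall, hall, hall] at h1
  simpa using h1.symm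

end forms

variable {G : Type*} [Group G] [Finite G] {z : G} {Q : Subgroup (CC z)} [Q.Normal]
  {e : (CC z) ⧸ Q ≃* Spor.Co1} {ψ : leechLattice → Q ⧸ Subgroup.center Q}

/-- The forms attached to `Q`. -/
theorem exists_form (D : Data z Q e ψ) :
    ∃ (q : leechLattice → ZMod 2) (b : leechLattice → leechLattice → ZMod 2), IsInvForm q b ∧
      (∀ v x, Rep ψ v x → (q v = 0 ↔ x * x = 1)) ∧
      (∀ v w x y, Rep ψ v x → Rep ψ w y → (b v w = 0 ↔ x * y = y * x)) := by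
  obtain ⟨-, -, hE, -, -⟩ := D.set
  obtain ⟨hadd, -, -, hinv⟩ := D.iso
  have hinv' : ∀ g : Co0, ∃ α : Q ≃* Q, ∀ (v : leechLattice) (x : Q), ψ v = QuotientGroup.mk x →
      ψ ((g : Equiv.Perm leechLattice) v) = QuotientGroup.mk (α x) := by
    intro g
    obtain ⟨r, hr⟩ := e.surjective (QuotientGroup.mk g)
    obtain ⟨h, rfl⟩ := QuotientGroup.mk_surjective r
    refine ⟨MulAut.conjNormal h, ?_⟩
    intro v x hx
    exact hinv h g hr.symm v x hx
  obtain ⟨q, b, hf, hq, hb⟩ := Cfsg.Agent.S5408.exists_form_of_iso hE ψ hadd hinv'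
  refine ⟨q, b, hf, ?_, ?_⟩
  · rintro v x ⟨hc, hqx, hv⟩
    rw [hq v _ hv, sqv_eq_zero_iff, pow_two]
    constructor
    · intro h
      exact congrArg (fun t : Q => ((t : CC z) : G)) h
    · intro h
      apply Subtype.ext
      apply Subtype.ext
      exact h
  · rintro v w x y ⟨hc, hqx, hv⟩ ⟨hc', hqy, hw⟩
    rw [hb v w _ _ hv hw, cmv_eq_zero_iff]
    constructor
    · intro h
      exact congrArg (fun t : Q => ((t : CC z) : G)) h
    · intro h
      apply Subtype.ext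
      apply Subtype.ext
      exact h

/-- The type `3` vectors do not represent involutions. -/
theorem not48 (D : Data z Q e ψ) (T : CoTrans) {v : leechLattice} {x : G} (hv : Rep ψ v x)
    (hx : x * x = 1) (h48 : sqNorm (v : GolayPt → ℤ) = 48) : False := by
  obtain ⟨q, b, hf, hq, hb⟩ := exists_form D
  apply q48_aux hf T ?_ h48 ((hq v x hv).2 hx)
  -- `Q` is not abelian
  obtain ⟨-, -, -, -, g, hg, hne⟩ := D.set
  have hgQ : g * z * g⁻¹ ∈ Q0 Q := D.mem_Q0_iff.2 hg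
  have P := D.pair hgQ hne
  obtain ⟨t, ht, hts⟩ := P.exists_t
  obtain ⟨v1, hv1⟩ := D.exists_rep ht
  obtain ⟨v2, hv2⟩ := D.exists_rep P.hsQ
  refine ⟨v1, v2, fun h => ?_⟩
  have h1 := (hb v1 v2 _ _ hv1 hv2).1 h
  have h2 : t * (g * z * g⁻¹) * t⁻¹ = g * z * g⁻¹ := conj_eq_of_comm h1
  rw [hts] at h2
  have h3 : z = 1 := by
    have := mul_right_cancel (b := g * z * g⁻¹) (a := z) (c := 1) (by rw [h2, one_mul])
    exact this
  exact P.z1 h3

/-- `Wt` is what the theorem about short vectors needs. -/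
theorem isNEA_Wt (D : Data z Q e ψ) {Q' : Subgroup G} {s g : G} (P : PairS (Q0 Q) Q' z s g)
    {v : leechLattice} (hv : Rep ψ v s) : IsNEA (Wt e Q') v where
  fix := fun _ hy => Wt_fix D P hv hy
  norm := fun _ ⟨_, hu⟩ _ hy => Wt_norm D P hv hu hy
  comm := fun _ hx _ hy => Wt_comm D P hx hy
  sq := fun _ hx => Wt_sq D P hx

omit [Finite G] in
theorem center_le_Wt {Q' : Subgroup G} : Subgroup.center Co0 ≤ Wt e Q' := by
  intro x hx
  show mkCo x ∈ W1 e Q'
  rw [mkCo_eq_one_iff.2 hx]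
  exact Subgroup.one_mem _

/-- Conjugates of `z` are not represented by short vectors. -/
theorem not32 (D : Data z Q e ψ) (T : CoTrans) {Q' : Subgroup G} {s g : G} (P : PairS (Q0 Q) Q' z s g)
    {v : leechLattice} (hv : Rep ψ v s) (h32 : sqNorm (v : GolayPt → ℤ) = 32) : False := by
  have hne : t0 ≠ t1 := t_ne.1
  obtain ⟨g₁, hg₁⟩ := T.t32 v (uab t0 t1) h32 (sqNorm_uab hne)
  have h1 := Cfsg.Agent.Lib.Co0Stab2.IsNEA.le_center_of (isNEA_Wt D P hv) center_le_Wt g₁ hg₁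
  obtain ⟨y, hy, hyz⟩ := exists_Wt_not_center D P
  exact hyz (h1 hy)

/-- Vectors of length `64`. -/
theorem exists_rep64 (D : Data z Q e ψ) (T : CoTrans) {Q' : Subgroup G} {s g : G}
    (P : PairS (Q0 Q) Q' z s g) {v₀ : leechLattice} (hv₀ : Rep ψ v₀ s) :
    ∃ v u : leechLattice, v₀ = v + (u + u) ∧ sqNorm (v : GolayPt → ℤ) = 64 ∧ Rep ψ v s := by
  have hd : ¬ ∃ u : leechLattice, v₀ = u + u := by
    intro h
    rcases (D.rep_central_iff hv₀).2 h with h1 | h1
    · exact P.s1 h1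
    · exact P.hne h1
  obtain ⟨w, u, rfl, h1⟩ := exists_short hd
  have hw : Rep ψ w s := by
    have := D.rep_congr hv₀ (-u)
    have e1 : w + (u + u) + (-u + -u) = w := by abel
    rwa [e1] at this
  refine ⟨w, u, rfl, ?_, hw⟩
  rcases h1 with h1 | h1 | h1
  · exact (not32 D T P hw h1).elim
  · exact (not48 D T hw P.ss h1).elim
  · exact h1

/-- A non-central element of `Q` represented by a vector of length `64` is conjugate to `z`. -/
theorem conj_of_rep64 (D : Data z Q e ψ) (T : CoTrans) {x : G} {v : leechLattice} (hv : Rep ψ v x)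
    (h64 : sqNorm (v : GolayPt → ℤ) = 64) : IsConj z x ∧ x ≠ z := by
  have hnd : ¬ ∃ u : leechLattice, v = u + u := by
    rintro ⟨u, rfl⟩
    have h1 : sqNorm ((u + u : leechLattice) : GolayPt → ℤ) = 4 * sqNorm (u : GolayPt → ℤ) := by
      unfold sqNorm
      rw [Finset.mul_sum]
      refine Finset.sum_congr rfl fun i _ => ?_
      show ((u : GolayPt → ℤ) i + (u : GolayPt → ℤ) i) ^ 2 = _
      ring
    have hu0 : (u : GolayPt → ℤ) ≠ 0 := by
      intro h0
      rw [h1, h0] at h64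
      simp [sqNorm] at h64
    have := Cfsg.Agent.Lib.LeechCong.min_norm' u.2 hu0
    omega
  have hx1 : x ≠ 1 := fun h => hnd ((D.rep_central_iff hv).1 (Or.inl h))
  have hxz : x ≠ z := fun h => hnd ((D.rep_central_iff hv).1 (Or.inr h))
  refine ⟨?_, hxz⟩
  obtain ⟨-, -, -, -, g, hg, hne⟩ := D.set
  have hgQ : g * z * g⁻¹ ∈ Q0 Q := D.mem_Q0_iff.2 hg
  have P := D.pair hgQ hne
  obtain ⟨v₀, hv₀⟩ := D.exists_rep hgQ
  obtain ⟨w, u, -, hw, hrep⟩ := exists_rep64 D T P hv₀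
  obtain ⟨g₁, u₁, hg₁⟩ := T.t64' hw h64
  obtain ⟨c, -, hc⟩ := D.exists_conj_of_rep hrep hv P.s1 P.hne hg₁
  have h2 : IsConj z (g * z * g⁻¹) := isConj_iff.2 ⟨g, rfl⟩
  rw [← hc]
  exact h2.trans (isConj_iff.2 ⟨c, rfl⟩)

/-- Conjugates of `z` in `Q`, other than `z`, form one orbit of `C`. -/
theorem conj_transitive (D : Data z Q e ψ) (T : CoTrans) {s t : G} (hsQ : s ∈ Q0 Q) (htQ : t ∈ Q0 Q)
    (hs : IsConj z s) (ht : IsConj z t) (hs1 : s ≠ z) (ht1 : t ≠ z) :
    ∃ h ∈ CC z, h * s * h⁻¹ = t := by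
  obtain ⟨g, rfl⟩ := isConj_iff.1 hs
  obtain ⟨g', rfl⟩ := isConj_iff.1 ht
  have P := D.pair hsQ hs1
  have P' := D.pair htQ ht1
  obtain ⟨v₀, hv₀⟩ := D.exists_rep hsQ
  obtain ⟨v₁, hv₁⟩ := D.exists_rep htQ
  obtain ⟨v, -, -, hv, hrep⟩ := exists_rep64 D T P hv₀
  obtain ⟨w, -, -, hw, hrep'⟩ := exists_rep64 D T P' hv₁
  obtain ⟨g₁, u₁, hg₁⟩ := T.t64' hv hw
  obtain ⟨c, -, hc⟩ := D.exists_conj_of_rep hrep hrep' P.s1 P.hne hg₁
  exact ⟨c, c.2, hc⟩

/-- The elements of `Q` conjugate to `z` and different from `z`. -/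
theorem conj_iff (D : Data z Q e ψ) (T : CoTrans) (x : Q) :
    (IsConj z ((x : CC z) : G) ∧ ((x : CC z) : G) ≠ z) ↔
      ∃ v : leechLattice, sqNorm (v : GolayPt → ℤ) = 64 ∧ ψ v = QuotientGroup.mk x := by
  constructor
  · rintro ⟨h1, h2⟩
    obtain ⟨g, hg⟩ := isConj_iff.1 h1
    have hx : ((x : CC z) : G) ∈ Q0 Q := ⟨_, x.2, rfl⟩
    rw [← hg] at hx h2
    have P := D.pair hx h2
    obtain ⟨v₀, hv₀⟩ := D.exists_rep hx
    obtain ⟨v, -, -, hv, hc, hq, h3⟩ := exists_rep64 D T P hv₀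
    refine ⟨v, hv, ?_⟩
    rw [h3]
    congr 1
    apply Subtype.ext
    apply Subtype.ext
    exact hg
  · rintro ⟨v, hv, hx⟩
    exact conj_of_rep64 D T ⟨(x : CC z).2, x.2, hx⟩ hv

/-- The involutions of `Q` not conjugate to `z` form one orbit of `C`. -/
theorem nonconj_transitive (D : Data z Q e ψ) (T : CoTrans) {s t : G} (hsQ : s ∈ Q0 Q) (htQ : t ∈ Q0 Q)
    (hs2 : orderOf s = 2) (ht2 : orderOf t = 2) (hs : ¬ IsConj z s) (ht : ¬ IsConj z t) :
    ∃ h ∈ CC z, h * s * h⁻¹ = t := by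
  have key : ∀ {x : G}, x ∈ Q0 Q → orderOf x = 2 → ¬ IsConj z x →
      ∃ v : leechLattice, Rep ψ v x ∧ sqNorm (v : GolayPt → ℤ) = 32 ∧ x ≠ 1 ∧ x ≠ z := by
    intro x hx h2 hc
    have hx1 : x ≠ 1 := by
      rintro rfl
      simp at h2
    have hxz : x ≠ z := by
      rintro rfl
      exact hc (IsConj.refl _)
    have hxx : x * x = 1 := by
      rw [← pow_two, ← h2]
      exact pow_orderOf_eq_one x
    obtain ⟨v₀, hv₀⟩ := D.exists_rep hx
    have hd : ¬ ∃ u : leechLattice, v₀ = u + u := by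
      intro h
      rcases (D.rep_central_iff hv₀).2 h with h1 | h1
      · exact hx1 h1
      · exact hxz h1
    obtain ⟨w, u, rfl, h1⟩ := exists_short hd
    have hw : Rep ψ w x := by
      have := D.rep_congr hv₀ (-u)
      have e1 : w + (u + u) + (-u + -u) = w := by abel
      rwa [e1] at this
    rcases h1 with h1 | h1 | h1
    · exact ⟨w, hw, h1, hx1, hxz⟩
    · exact (not48 D T hw hxx h1).elim
    · exact (hc (conj_of_rep64 D T hw h1).1).elim
  obtain ⟨v, hv, hv32, h1, hz⟩ := key hsQ hs2 hs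
  obtain ⟨w, hw, hw32, -, -⟩ := key htQ ht2 ht
  obtain ⟨g, hg⟩ := T.t32 v w hv32 hw32
  have hg' : (g : Equiv.Perm leechLattice) v = w + (0 + 0) := by
    rw [add_zero, add_zero]
    exact hg
  obtain ⟨c, -, hc⟩ := D.exists_conj_of_rep hv hw h1 hz hg'
  exact ⟨c, c.2, hc⟩

/-- Order of the intersection, given the frame. -/
theorem Wt_le_sign (D : Data z Q e ψ) (T : CoTrans) {Q' : Subgroup G} {s g : G} (P : PairS (Q0 Q) Q' z s g)
    {v : leechLattice} (hv : Rep ψ v s) (h64 : sqNorm (v : GolayPt → ℤ) = 64) :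
    ∃ (g₀ : Co0) (u : leechLattice), (g₀ : Equiv.Perm leechLattice) v = Cfsg.Agent.S0398.e8 none + (u + u) ∧
      (Wt e Q').map (MulAut.conj g₀).toMonoidHom ≤ Sign := by
  obtain ⟨g₀, u, hg₀⟩ := T.t64' h64 (w := Cfsg.Agent.S0398.e8 none) (sqNorm_e8 _)
  refine ⟨g₀, u, hg₀, ?_⟩
  have h1 := (isNEA_Wt D P hv).conj g₀
  rw [hg₀] at h1
  have h2 := h1.congr (-u)
  have e1 : Cfsg.Agent.S0398.e8 none + (u + u) + (-u + -u) = Cfsg.Agent.S0398.e8 none := by abel
  rw [e1] at h2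
  intro y hy
  exact h2.le_sign y hy

omit [Finite G] in
theorem map_Wt (Q' : Subgroup G) : (Wt e Q').map mkCo = W1 e Q' :=
  Subgroup.map_comap_eq_self_of_surjective mkCo_surjective _

/-- The order of `W1`. -/
theorem card_W1_eq (D : Data z Q e ψ) (T : CoTrans) {Q' : Subgroup G} {s g : G}
    (P : PairS (Q0 Q) Q' z s g) : Nat.card (W1 e Q') = 2 ^ 11 := by
  obtain ⟨v₀, hv₀⟩ := D.exists_rep P.hsQ
  obtain ⟨v, -, -, h64, hv⟩ := exists_rep64 D T P hv₀
  obtain ⟨g₀, u, -, hle⟩ := Wt_le_sign D T P hv h64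
  apply le_antisymm _ (card_W1_ge D P)
  have h1 : ((Wt e Q').map (MulAut.conj g₀).toMonoidHom).map mkCo ≤ Sign.map mkCo := Subgroup.map_mono hle
  have h2 : Nat.card ↥(((Wt e Q').map (MulAut.conj g₀).toMonoidHom).map mkCo) = Nat.card (W1 e Q') := by
    rw [← map_Wt]
    have h3 : ((Wt e Q').map (MulAut.conj g₀).toMonoidHom).map mkCo =
        ((Wt e Q').map mkCo).map (MulAut.conj (mkCo g₀)).toMonoidHom := by
      ext x
      simp only [Subgroup.mem_map, MulEquiv.coe_toMonoidHom, MulAut.conj_apply]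
      constructor
      · rintro ⟨_, ⟨y, hy, rfl⟩, rfl⟩
        exact ⟨mkCo y, ⟨y, hy, rfl⟩, by simp⟩
      · rintro ⟨_, ⟨y, hy, rfl⟩, rfl⟩
        exact ⟨g₀ * y * g₀⁻¹, ⟨y, hy, rfl⟩, by simp⟩
    rw [h3, Subgroup.card_map_of_injective (MulAut.conj (mkCo g₀)).injective]
  rw [← h2]
  exact (Subgroup.card_le_of_le h1).trans card_map_Sign_le

/-- The order of the intersection of `Q` with a conjugate. -/
theorem card_inter (D : Data z Q e ψ) (T : CoTrans) {Q' : Subgroup G} {s g : G}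
    (P : PairS (Q0 Q) Q' z s g) : Nat.card ↥(Q0 Q ⊓ Q') = 2 ^ 13 := by
  have h1 := card_W1 D P
  rw [card_W1_eq D T P] at h1
  have : (2 : ℕ) ^ 24 = 2 ^ 11 * 2 ^ 13 := by norm_num
  rw [this] at h1
  exact Nat.eq_of_mul_eq_mul_left (by norm_num) h1

end Cfsg.Agent.Lib.MonsterMain
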