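import Mathlib
import Cfsg.Agent.Lib.MonsterMain

/-!
# Monster type: the image in `C/Q` of the centralizer of a conjugate of `z` in `Q`.
-/

set_option autoImplicit false

open Cfsg
open Cfsg.Agent.Lib.LargeExtra Cfsg.Agent.Lib.LargePair Cfsg.Agent.Lib.MonsterLocal
open Cfsg.Agent.Lib.Co0Mono Cfsg.Agent.Lib.Leech
open Cfsg.Agent.Lib.Co0Frame Cfsg.Agent.Lib.MonsterMain

namespace Cfsg.Agent.Lib.MonsterSplit

/-- `y` fixes the class of `v`. -/
def FixCl (y : Co0) (v : leechLattice) : Prop :=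
  ∃ u : leechLattice, (y : Equiv.Perm leechLattice) v = v + (u + u)

theorem FixCl.congr {y : Co0} {v : leechLattice} (h : FixCl y v) (u : leechLattice) :
    FixCl y (v + (u + u)) := by
  obtain ⟨t, ht⟩ := h
  refine ⟨t + (y : Equiv.Perm leechLattice) u - u, ?_⟩
  rw [co0_add, co0_add, ht]
  abel

theorem FixCl.congr' {y : Co0} {v : leechLattice} {u : leechLattice} (h : FixCl y (v + (u + u))) :
    FixCl y v := by
  have := h.congr (-u)
  have e1 : v + (u + u) + (-u + -u) = v := by abel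
  rwa [e1] at this

theorem FixCl.conj {y : Co0} {v : leechLattice} (h : FixCl y v) (g : Co0) :
    FixCl (g * y * g⁻¹) ((g : Equiv.Perm leechLattice) v) := by
  obtain ⟨u, hu⟩ := h
  refine ⟨(g : Equiv.Perm leechLattice) u, ?_⟩
  show (g : Equiv.Perm leechLattice) ((y : Equiv.Perm leechLattice) ((g : Equiv.Perm leechLattice)⁻¹ ((g : Equiv.Perm leechLattice) v))) = _
  rw [show (g : Equiv.Perm leechLattice)⁻¹ ((g : Equiv.Perm leechLattice) v) = v by simp, hu, co0_add, co0_add]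

/-- The monomial group without signs, as a homomorphism. -/
noncomputable def mm : M24 →* Co0 where
  toFun σ := monoCo0 empty_mem_codeSets (M24.inv_mem σ.2)
  map_one' := by
    convert monoCo0_one using 2
    exact inv_one
  map_mul' := by
    intro a b
    rw [monoCo0_mul]
    apply monoCo0_congr
    · simp
    · show ((a : Equiv.Perm GolayPt) * b)⁻¹ = _
      rw [mul_inv_rev]

theorem mm_apply (σ : M24) : mm σ = monoCo0 empty_mem_codeSets (M24.inv_mem σ.2) := rfl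

theorem mm_eq_center {σ : M24} (h : mm σ ∈ Subgroup.center Co0) : σ = 1 := by
  have h2 : ((σ : Equiv.Perm GolayPt))⁻¹ = 1 := by
    rcases center_cases h with h1 | h1
    · rw [mm_apply, ← monoCo0_one] at h1
      exact (monoCo0_part_eq h1).2
    · rw [mm_apply, neg_eq_monoCo0] at h1
      exact (monoCo0_part_eq h1).2
  apply Subtype.ext
  exact inv_eq_one.1 h2

/-- A monomial element is a sign change times a permutation. -/
theorem mono_decomp {c : Finset GolayPt} {σ : Equiv.Perm GolayPt} (hc : c ∈ codeSets) (hσ : σ ∈ M24) :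
    monoCo0 hc hσ = eps hc * mm ⟨σ⁻¹, M24.inv_mem hσ⟩ := by
  rw [mm_apply, eps, monoCo0_mul]
  apply monoCo0_congr
  · ext k
    simp [Finset.mem_symmDiff]
  · simp

/-- A sign change modulo the centre has trivial permutation part. -/
theorem mm_eq_eps {σ : M24} {z' : Co0} (hz : z' ∈ Subgroup.center Co0) {c : Finset GolayPt}
    {hc : c ∈ codeSets} (h : mm σ * z' = eps hc) : σ = 1 := by
  have h2 : ((σ : Equiv.Perm GolayPt))⁻¹ = 1 := by
    rcases center_cases hz with h1 | h1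
    · rw [h1, mul_one, mm_apply, eps] at h
      exact (monoCo0_part_eq h).2
    · rw [h1, neg_eq_monoCo0, mm_apply, monoCo0_mul, eps] at h
      have := (monoCo0_part_eq h).2
      simpa using this
  apply Subtype.ext
  exact inv_eq_one.1 h2

variable {G : Type*} [Group G] [Finite G] {z : G} {Q : Subgroup (CC z)} [Q.Normal]
  {e : (CC z) ⧸ Q ≃* Spor.Co1} {ψ : leechLattice → Q ⧸ Subgroup.center Q}

/-- The statement on `C/Q`. -/
theorem split (D : Data z Q e ψ) (T : CoTrans) {Q' : Subgroup G} {s g : G} (P : PairS (Q0 Q) Q' z s g)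
    (X E : Subgroup ((CC z) ⧸ Q))
    (hX : X = ((CC z ⊓ CC s).subgroupOf (CC z)).map (QuotientGroup.mk' Q))
    (hE : E = ((Q' ⊓ CC z).subgroupOf (CC z)).map (QuotientGroup.mk' Q)) :
    E ≤ X ∧ (∀ x ∈ X, ∀ y ∈ E, x * y * x⁻¹ ∈ E) ∧ IsElementaryAbelian 2 E ∧ Nat.card E = 2 ^ 11 ∧
      ∃ K : Subgroup ((CC z) ⧸ Q), K ≤ X ∧ E ⊓ K = ⊥ ∧ E ⊔ K = X ∧ Nonempty (K ≃* M24) := by
  have hmemX : ∀ x, x ∈ X ↔ ∃ h : CC z, (h : G) * s = s * h ∧ QuotientGroup.mk h = x := by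
    intro x
    rw [hX]
    constructor
    · rintro ⟨h, hh, rfl⟩
      have h1 := hh.2
      exact ⟨h, Subgroup.mem_centralizer_singleton_iff.1 h1, rfl⟩
    · rintro ⟨h, hh, rfl⟩
      exact ⟨h, ⟨h.2, Subgroup.mem_centralizer_singleton_iff.2 hh⟩, rfl⟩
  have hmemE : ∀ x, x ∈ E ↔ ∃ r : CC z, (r : G) ∈ Q' ∧ QuotientGroup.mk r = x := by
    intro x
    rw [hE]
    constructor
    · rintro ⟨h, hh, rfl⟩
      exact ⟨h, hh.1, rfl⟩
    · rintro ⟨h, hh, rfl⟩
      exact ⟨h, ⟨hh, h.2⟩, rfl⟩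
  have hcommQ : ∀ r r' : CC z, (r : G) ∈ Q' → (r' : G) ∈ Q' → r * r' * r⁻¹ * r'⁻¹ ∈ Q := by
    intro r r' hr hr'
    obtain ⟨hc, hq⟩ := D.mem_Q0_iff.1 (show (((r * r' * r⁻¹ * r'⁻¹ : CC z)) : G) ∈ Q0 Q by
      rcases P.hS'.extra.comm _ hr _ hr' with h2 | h2
      · have : (((r * r' * r⁻¹ * r'⁻¹ : CC z)) : G) = 1 := h2
        rw [this]; exact Subgroup.one_mem _
      · have : (((r * r' * r⁻¹ * r'⁻¹ : CC z)) : G) = s := h2
        rw [this]; exact P.hsQ)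
    exact hq
  have hsqQ : ∀ r : CC z, (r : G) ∈ Q' → r ^ 2 ∈ Q := by
    intro r hr
    obtain ⟨hc, hq⟩ := D.mem_Q0_iff.1 (show (((r ^ 2 : CC z)) : G) ∈ Q0 Q by
      rcases P.hS'.extra.sq _ hr with h2 | h2
      · have : (((r ^ 2 : CC z)) : G) = 1 := h2
        rw [this]; exact Subgroup.one_mem _
      · have : (((r ^ 2 : CC z)) : G) = s := h2
        rw [this]; exact P.hsQ)
    exact hq
  have hEX : E ≤ X := by
    intro x hx
    obtain ⟨r, hr, rfl⟩ := (hmemE x).1 hx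
    exact (hmemX _).2 ⟨r, P.hS'.extra.cen _ hr, rfl⟩
  have hnorm : ∀ x ∈ X, ∀ y ∈ E, x * y * x⁻¹ ∈ E := by
    intro x hx y hy
    obtain ⟨h, hh, rfl⟩ := (hmemX x).1 hx
    obtain ⟨r, hr, rfl⟩ := (hmemE y).1 hy
    refine (hmemE _).2 ⟨h * r * h⁻¹, P.hS'.nQ _ hh _ hr, ?_⟩
    rfl
  have hea : IsElementaryAbelian 2 E := by
    refine ⟨⟨⟨?_⟩⟩, ?_⟩
    · rintro ⟨a, ha⟩ ⟨b, hb⟩
      apply Subtype.ext
      obtain ⟨r, hr, rfl⟩ := (hmemE a).1 ha
      obtain ⟨r', hr', rfl⟩ := (hmemE b).1 hb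
      have h1 : (QuotientGroup.mk (r * r' * r⁻¹ * r'⁻¹) : (CC z) ⧸ Q) = 1 :=
        (QuotientGroup.eq_one_iff _).2 (hcommQ r r' hr hr')
      have h2 : (QuotientGroup.mk r : (CC z) ⧸ Q) * QuotientGroup.mk r' * (QuotientGroup.mk r)⁻¹ * (QuotientGroup.mk r')⁻¹ = 1 := h1
      show (QuotientGroup.mk r : (CC z) ⧸ Q) * QuotientGroup.mk r' = QuotientGroup.mk r' * QuotientGroup.mk r
      calc (QuotientGroup.mk r : (CC z) ⧸ Q) * QuotientGroup.mk r'
          = ((QuotientGroup.mk r : (CC z) ⧸ Q) * QuotientGroup.mk r' * (QuotientGroup.mk r)⁻¹ * (QuotientGroup.mk r')⁻¹) * (QuotientGroup.mk r' * QuotientGroup.mk r) := by group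
        _ = QuotientGroup.mk r' * QuotientGroup.mk r := by rw [h2, one_mul]
    · intro a ha
      obtain ⟨r, hr, rfl⟩ := (hmemE a).1 ha
      exact (QuotientGroup.eq_one_iff _).2 (hsqQ r hr)
  have hEW : E.map e.toMonoidHom = W1 e Q' := by
    ext x
    constructor
    · rintro ⟨y, hy, rfl⟩
      obtain ⟨r, hr, rfl⟩ := (hmemE y).1 hy
      exact ⟨r, hr, rfl⟩
    · rintro ⟨r, hr, rfl⟩
      exact ⟨_, (hmemE _).2 ⟨r, hr, rfl⟩, rfl⟩
  have hcard : Nat.card E = 2 ^ 11 := by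
    rw [← card_W1_eq D T P, ← hEW, Subgroup.card_map_of_injective e.injective]
  refine ⟨hEX, hnorm, hea, hcard, ?_⟩
  -- the complement
  obtain ⟨v₀, hv₀⟩ := D.exists_rep P.hsQ
  obtain ⟨v, -, -, h64, hv⟩ := exists_rep64 D T P hv₀
  obtain ⟨g₀, u, hg₀, hle⟩ := Wt_le_sign D T P hv h64
  set f : M24 →* (CC z) ⧸ Q := e.symm.toMonoidHom.comp
    (mkCo.comp ((MulAut.conj g₀⁻¹).toMonoidHom.comp mm)) with hf
  have hf_apply : ∀ σ, e (f σ) = mkCo (g₀⁻¹ * mm σ * g₀) := by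
    intro σ
    simp [hf, MulAut.conj_apply]
  have hfinj : Function.Injective f := by
    rw [injective_iff_map_eq_one]
    intro σ hσ
    have h1 : mkCo (g₀⁻¹ * mm σ * g₀) = 1 := by
      rw [← hf_apply, hσ, map_one]
    have h2 := mkCo_eq_one_iff.1 h1
    have h3 := Subgroup.Normal.conj_mem (inferInstance : (Subgroup.center Co0).Normal) _ h2 g₀
    have h4 : g₀ * (g₀⁻¹ * mm σ * g₀) * g₀⁻¹ = mm σ := by group
    rw [h4] at h3
    exact mm_eq_center h3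
  have hfix : ∀ σ, FixCl (g₀⁻¹ * mm σ * g₀) v := by
    intro σ
    have h1 : FixCl (mm σ) (Cfsg.Agent.S0398.e8 none) := monoCo0_cong _ _ _
    have h2 := (h1.congr u).conj g₀⁻¹
    rw [← hg₀] at h2
    have h3 : ((g₀⁻¹ : Co0) : Equiv.Perm leechLattice) ((g₀ : Equiv.Perm leechLattice) v) = v := by
      show (g₀ : Equiv.Perm leechLattice)⁻¹ ((g₀ : Equiv.Perm leechLattice) v) = v
      simp
    rw [h3] at h2
    simpa using h2
  have hKX : f.range ≤ X := by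
    rintro _ ⟨σ, rfl⟩
    obtain ⟨t, ht⟩ := hfix σ
    obtain ⟨c, hc, hcs⟩ := D.exists_lift_comm hv P.s1 P.hne ht
    refine (hmemX _).2 ⟨c, hcs, ?_⟩
    apply e.injective
    rw [hf_apply, ← hc]
    rfl
  have hbot : E ⊓ f.range = ⊥ := by
    rw [eq_bot_iff]
    rintro y ⟨hy1, σ, rfl⟩
    obtain ⟨r, hr, hrσ⟩ := (hmemE _).1 hy1
    obtain ⟨t, ht⟩ := exists_lift' (Q := Q) (e := e) r
    have htW : t ∈ Wt e Q' := mem_Wt.2 ⟨r, hr, ht.symm⟩
    have h1 : mkCo t = mkCo (g₀⁻¹ * mm σ * g₀) := by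
      rw [ht, ← hf_apply, ← hrσ]
      rfl
    have h2 : (g₀⁻¹ * mm σ * g₀)⁻¹ * t ∈ Subgroup.center Co0 := by
      apply mkCo_eq_one_iff.1
      rw [map_mul, map_inv, h1]
      exact inv_mul_cancel _
    have h3 : g₀ * t * g₀⁻¹ ∈ Sign := hle ⟨t, htW, rfl⟩
    obtain ⟨c, hc, h4⟩ := h3
    have h5 : mm σ * ((g₀⁻¹ * mm σ * g₀)⁻¹ * t) = eps hc := by
      rw [← h4]
      have h6 := Subgroup.mem_center_iff.1 h2 g₀
      generalize hz' : (g₀⁻¹ * mm σ * g₀)⁻¹ * t = z' at h6 ⊢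
      have h7 : t = (g₀⁻¹ * mm σ * g₀) * z' := by
        rw [← hz']
        group
      rw [h7]
      calc mm σ * z' = mm σ * (g₀ * z' * g₀⁻¹) := by rw [h6]; group
        _ = g₀ * (g₀⁻¹ * mm σ * g₀ * z') * g₀⁻¹ := by group
    have h6 := mm_eq_eps h2 h5
    rw [h6, map_one]
    exact Subgroup.one_mem _
  have hsign : (Sign).map mkCo = (W1 e Q').map (MulAut.conj (mkCo g₀)).toMonoidHom := by
    symm
    apply Subgroup.eq_of_le_of_card_ge
    · rintro _ ⟨w, hw, rfl⟩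
      obtain ⟨t, rfl⟩ := mkCo_surjective w
      have ht : t ∈ Wt e Q' := hw
      refine ⟨g₀ * t * g₀⁻¹, hle ⟨t, ht, rfl⟩, ?_⟩
      simp [MulAut.conj_apply]
    · have hA : Nat.card ↥((W1 e Q').map (MulAut.conj (mkCo g₀)).toMonoidHom) = 2 ^ 11 := by
        rw [Subgroup.card_map_of_injective (MulAut.conj (mkCo g₀)).injective, card_W1_eq D T P]
      rw [hA]
      exact card_map_Sign_le
  have hsup : E ⊔ f.range = X := by
    apply le_antisymm (sup_le hEX hKX)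
    intro x hx
    obtain ⟨h, hh, rfl⟩ := (hmemX x).1 hx
    obtain ⟨g₁, hg₁⟩ := exists_lift' (Q := Q) (e := e) h
    obtain ⟨t, ht⟩ := D.fix_of_comm hv hg₁.symm hh
    have h1 : FixCl g₁ v := ⟨t, ht⟩
    have h2 := h1.conj g₀
    rw [hg₀] at h2
    obtain ⟨t', ht'⟩ := h2.congr'
    obtain ⟨c, σ, hc, hσ, h3⟩ := exists_mono_of_cong ht'
    rw [mono_decomp] at h3
    -- the sign part
    have h4 : mkCo (eps hc) ∈ (W1 e Q').map (MulAut.conj (mkCo g₀)).toMonoidHom := by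
      rw [← hsign]
      exact ⟨eps hc, ⟨c, hc, rfl⟩, rfl⟩
    obtain ⟨w, hw, h5⟩ := h4
    obtain ⟨r, hr, h6⟩ := hw
    have h7 : (QuotientGroup.mk r : (CC z) ⧸ Q) ∈ E := (hmemE _).2 ⟨r, hr, rfl⟩
    have h8 : f ⟨σ⁻¹, M24.inv_mem hσ⟩ ∈ f.range := ⟨_, rfl⟩
    have h9 : (QuotientGroup.mk h : (CC z) ⧸ Q) = QuotientGroup.mk r * f ⟨σ⁻¹, M24.inv_mem hσ⟩ := by
      apply e.injective
      rw [map_mul, hf_apply]
      show phi Q e h = phi Q e r * _
      rw [← hg₁, h6]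
      have h10 : g₁ = g₀⁻¹ * (g₀ * g₁ * g₀⁻¹) * g₀ := by group
      conv_lhs => rw [h10, h3]
      simp only [map_mul, map_inv]
      have h11 : w = mkCo g₀⁻¹ * mkCo (eps hc) * mkCo g₀ := by
        simp only [MulEquiv.coe_toMonoidHom, MulAut.conj_apply] at h5
        rw [map_inv, ← h5]
        group
      rw [h11]
      simp only [map_inv]
      group
    rw [h9]
    exact Subgroup.mul_mem_sup h7 h8
  exact ⟨f.range, hKX, hbot, hsup, ⟨(MonoidHom.ofInjective hfinj).symm⟩⟩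

end Cfsg.Agent.Lib.MonsterSplit
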