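import Mathlib
import Cfsg.Agent.Lib.MonsterMain
import Cfsg.Agent.Lib.Co0Trans

/-!
# The transitivity statements used for groups of Monster type.
-/

set_option autoImplicit false

open Cfsg Cfsg.Agent.Lib.MonsterMain Cfsg.Agent.Lib.Co0Trans

namespace Cfsg.Agent.Lib.MonsterTrans

/-- Transitivity of `Co0` on vectors of squared length 32, 48, and on classes of those of length 64. -/
theorem coTrans : CoTrans where
  t32 := trans32
  t48 := trans48
  t64 := fun v w hv hw => by
    obtain ⟨g, hg⟩ := trans64 v w hv hw
    refine ⟨g, 0, leechLattice.zero_mem, ?_⟩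
    rw [hg]
    simp

end Cfsg.Agent.Lib.MonsterTrans
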