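import Mathlib
import Cfsg.Agent.Lib.Five1

/-!
# The centralizer of `x5` in `Co0` acts on the ten subspaces of frames in the fixed classes modulo two.
-/

set_option autoImplicit false
set_option maxRecDepth 100000

open Cfsg Cfsg.Agent.Lib.Leech Cfsg.Agent.Lib.Co0Mono Cfsg.Agent.Lib.Co0Frame
open Cfsg.Agent.Lib.FiveData Cfsg.Agent.Lib.CoVec Cfsg.Agent.Lib.MonsterSplit Cfsg.Agent.Lib.Five1

namespace Cfsg.Agent.Lib.Five2

/-! ### The lines, as numbers -/

/-- The row of a number. -/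
def rw (a : ℕ) : ℕ := Nat.land (Nat.shiftRight rowP (Nat.mul 4 a)) 15

/-- The column of a number. -/
def cl (a : ℕ) : ℕ := Nat.land (Nat.shiftRight colP (Nat.mul 4 a)) 15

/-- The test of membership in a line. -/
def LLm (t : Fin 5 ⊕ Fin 5) (a : ℕ) : Bool :=
  Nat.beq a 0 || match t with
    | Sum.inl i => Nat.beq (rw a) i
    | Sum.inr i => Nat.beq (cl a) i

/-- The ten lines. -/
def LL (t : Fin 5 ⊕ Fin 5) : Finset ℕ := (Finset.range 256).filter (fun a => LLm t a = true)

theorem R1 : ∀ a < 256, (nt a = 64 ↔ rw a < 5) ∧ (rw a < 5 → cl a < 5) := by decide +kernel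

/-- The adjacency. -/
def R2P (a b : ℕ) : Prop := rw a < 5 → rw b < 5 → a ≠ b → rw (a ^^^ b) < 5 → (rw a = rw b ∨ cl a = cl b)

instance (a b : ℕ) : Decidable (R2P a b) := by
  unfold R2P
  infer_instance

theorem R2 : ∀ a < 256, ∀ b < 256, R2P a b := by
  decide +kernel

theorem R3 : ∀ t, ∀ a ∈ LL t, ∀ b ∈ LL t, a ^^^ b ∈ LL t := by decide +kernel

theorem R4 : ∀ t, (LL t).card = 16 := by decide +kernel

theorem R5 : ∀ t t', LL t = LL t' → t = t' := by decide +kernel

theorem R6 : ∀ t, (0 ∈ LL t) ∧ ∀ a ∈ LL t, a < 256 ∧ (a ≠ 0 → rw a < 5) := by decide +kernel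

theorem R7 : ((Finset.range 256).filter (fun a => rw a < 5)).card = 75 := by decide +kernel

/-- The rook argument. -/
theorem rook {S : Finset ℕ} (hc : S.card = 16) (hlt : ∀ s ∈ S, s < 256) (hF : ∀ s ∈ S, s ≠ 0 → rw s < 5)
    (hx : ∀ s ∈ S, ∀ s' ∈ S, s ^^^ s' ∈ S) : ∃ t, S = LL t := by
  obtain ⟨a, ha, ha0⟩ : ∃ a ∈ S, a ≠ 0 := by
    by_contra hcon
    push Not at hcon
    have : S ⊆ {0} := fun s hs => Finset.mem_singleton.2 (hcon s hs)
    have := Finset.card_le_card this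
    simp at this
    omega
  have hra := hF a ha ha0
  have hca := (R1 a (hlt a ha)).2 hra
  have hadj : ∀ s ∈ S, ∀ s' ∈ S, s ≠ 0 → s' ≠ 0 → s ≠ s' → rw s = rw s' ∨ cl s = cl s' := by
    intro s hs s' hs' h1 h2 h3
    have h4 : s ^^^ s' ≠ 0 := by
      intro h5
      exact h3 (Nat.xor_eq_zero_iff.1 h5)
    exact R2 s (hlt s hs) s' (hlt s' hs') (hF s hs h1) (hF s' hs' h2) h3 (hF _ (hx s hs s' hs') h4)
  have key : (∀ s ∈ S, s ≠ 0 → rw s = rw a) ∨ (∀ s ∈ S, s ≠ 0 → cl s = cl a) := by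
    by_cases h1 : ∀ s ∈ S, s ≠ 0 → rw s = rw a
    · exact Or.inl h1
    · right
      push Not at h1
      obtain ⟨s₁, hs₁, hs₁0, hs₁r⟩ := h1
      have hs₁a : s₁ ≠ a := fun e => hs₁r (e ▸ rfl)
      have hs₁c : cl s₁ = cl a := by
        rcases hadj s₁ hs₁ a ha hs₁0 ha0 hs₁a with h2 | h2
        · exact absurd h2 hs₁r
        · exact h2
      intro s hs hs0
      by_cases hsa : s = a
      · rw [hsa]
      · rcases hadj s hs a ha hs0 ha0 hsa with h2 | h2
        · by_contra h3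
          have hss : s ≠ s₁ := by
            intro e
            rw [e] at h2
            exact hs₁r h2
          rcases hadj s hs s₁ hs₁ hs0 hs₁0 hss with h4 | h4
          · rw [h2] at h4
            exact hs₁r h4.symm
          · rw [hs₁c] at h4
            exact h3 h4
        · exact h2
  have hsub : ∀ t, (∀ s ∈ S, s ∈ LL t) → S = LL t := by
    intro t ht
    exact Finset.eq_of_subset_of_card_le ht (by rw [R4, hc])
  rcases key with h1 | h1
  · refine ⟨Sum.inl ⟨rw a, by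
      have := hra
      omega⟩, hsub _ fun s hs => ?_⟩
    refine Finset.mem_filter.2 ⟨Finset.mem_range.2 (hlt s hs), ?_⟩
    by_cases hs0 : s = 0
    · rw [hs0]
      rfl
    · have := h1 s hs hs0
      simp [LLm, this]
  · refine ⟨Sum.inr ⟨cl a, hca⟩, hsub _ fun s hs => ?_⟩
    refine Finset.mem_filter.2 ⟨Finset.mem_range.2 (hlt s hs), ?_⟩
    by_cases hs0 : s = 0
    · rw [hs0]
      rfl
    · have := h1 s hs hs0
      simp [LLm, this]

/-! ### The action on numbers -/

/-- The centralizer of `x5`. -/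
abbrev C5 : Subgroup Co0 := Subgroup.centralizer ({x5} : Set Co0)

theorem mem_C5 {g : Co0} : g ∈ C5 ↔ g * x5 = x5 * g := Subgroup.mem_centralizer_singleton_iff

theorem fix_map {g : Co0} (hg : g ∈ C5) {v : leechLattice} (hv : FixCl x5 v) :
    FixCl x5 ((g : Equiv.Perm leechLattice) v) := by
  obtain ⟨u, hu⟩ := hv
  refine ⟨(g : Equiv.Perm leechLattice) u, ?_⟩
  have h1 : (x5 : Equiv.Perm leechLattice) ((g : Equiv.Perm leechLattice) v) = (g : Equiv.Perm leechLattice) ((x5 : Equiv.Perm leechLattice) v) := by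
    have := congrArg (fun k : Co0 => (k : Equiv.Perm leechLattice) v) (mem_C5.1 hg)
    exact this.symm
  rw [h1, hu, co0_add, co0_add]

/-- The action on numbers. -/
noncomputable def A (g : Co0) (a : ℕ) : ℕ := cc ((g : Equiv.Perm leechLattice) (M a) : leechLattice)

theorem A_lt (g : Co0) (a : ℕ) : A g a < 256 := cc_lt _

/-- Vectors of length `64` have numbers of frames. -/
theorem nt_of_norm {v : leechLattice} (hv : FixCl x5 v) (h64 : sqNorm (v : GolayPt → ℤ) = 64) :
    nt (cc (v : GolayPt → ℤ)) = 64 := by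
  obtain ⟨u, hu⟩ := exists_cong_M hv
  set b := cc (v : GolayPt → ℤ) with hb
  have h1 := sqNorm_M b
  have h2 : (nt b : ℤ) ≤ 64 := by
    rcases nt_cases b with h | h | h | h <;> (rw [h]; norm_num)
  have h3 : (v : GolayPt → ℤ) - (M b : GolayPt → ℤ) = (2 : ℕ) • (u : GolayPt → ℤ) := by
    rw [hu, two_nsmul]
    simp only [AddSubgroup.coe_add]
    abel
  rcases Cfsg.Agent.Lib.LeechCong.cong_main (M b).2 u.2 (by omega) (by omega) h3 with h4 | h4 | h4
  · rw [h4, h1] at h64
    exact_mod_cast h64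
  · rw [h4, Cfsg.Agent.Lib.LeechCong.sqNorm_neg, h1] at h64
    exact_mod_cast h64
  · rw [h1] at h4
    exact_mod_cast h4.2.1

theorem A_norm {g : Co0} (hg : g ∈ C5) {a : ℕ} (h : a < 256) (h64 : nt a = 64) : nt (A g a) = 64 := by
  apply nt_of_norm (fix_map hg (fixCl_M h))
  rw [g.2.2, sqNorm_M, h64]
  rfl

/-- Two vectors with the same number are congruent. -/
theorem cong_of_cc {v w : leechLattice} (hv : FixCl x5 v) (hw : FixCl x5 w)
    (h : cc (v : GolayPt → ℤ) = cc (w : GolayPt → ℤ)) : ∃ u : leechLattice, v = w + (u + u) := by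
  obtain ⟨a, ha⟩ := exists_cong_M hv
  obtain ⟨b, hb⟩ := exists_cong_M hw
  rw [h] at ha
  refine ⟨a - b, ?_⟩
  have e : w + ((a - b) + (a - b)) = (w - (b + b)) + (a + a) := by abel
  rw [e]
  have e2 : w - (b + b) = M (cc (w : GolayPt → ℤ)) := by
    conv_lhs => rw [hb]
    abel
  rw [e2]
  exact ha

theorem A_xor {g : Co0} {a b : ℕ} (ha : a < 256) (hb : b < 256) : A g (a ^^^ b) = A g a ^^^ A g b := by
  have hab : a ^^^ b < 256 := by
    have := Nat.xor_lt_two_pow (n := 8) ha hb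
    simpa using this
  have h1 : FixCl x5 (M a + M b) := by
    obtain ⟨u, hu⟩ := fixCl_M ha
    obtain ⟨u', hu'⟩ := fixCl_M hb
    refine ⟨u + u', ?_⟩
    have e : (x5 : Equiv.Perm leechLattice) (M a + M b) = (x5 : Equiv.Perm leechLattice) (M a) + (x5 : Equiv.Perm leechLattice) (M b) := x5.2.1 _ _
    rw [e, hu, hu']
    abel
  have h2 : cc ((M a + M b : leechLattice) : GolayPt → ℤ) = cc (M (a ^^^ b) : GolayPt → ℤ) := by
    rw [cc_add, cc_M ha, cc_M hb, cc_M hab]
  obtain ⟨u, hu⟩ := cong_of_cc h1 (fixCl_M hab) h2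
  have h3 : (g : Equiv.Perm leechLattice) (M a) + (g : Equiv.Perm leechLattice) (M b) =
      (g : Equiv.Perm leechLattice) (M (a ^^^ b)) + ((g : Equiv.Perm leechLattice) u + (g : Equiv.Perm leechLattice) u) := by
    rw [← co0_add, ← co0_add, ← co0_add, hu]
  unfold A
  have h4 := congrArg (fun v : leechLattice => cc (v : GolayPt → ℤ)) h3
  simp only [cc_add] at h4
  rw [h4, Nat.xor_self, Nat.xor_zero]

theorem A_mul {g h : Co0} (hh : h ∈ C5) {a : ℕ} (ha : a < 256) : A (g * h) a = A g (A h a) := by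
  have h1 := fix_map hh (fixCl_M ha)
  have h2 : cc ((h : Equiv.Perm leechLattice) (M a) : leechLattice) = cc (M (A h a) : GolayPt → ℤ) := by
    rw [cc_M (A_lt h a)]
    rfl
  obtain ⟨u, hu⟩ := cong_of_cc h1 (fixCl_M (A_lt h a)) h2
  show cc ((g : Equiv.Perm leechLattice) ((h : Equiv.Perm leechLattice) (M a)) : leechLattice) = _
  rw [hu, co0_add, co0_add, cc_congr]
  rfl

theorem A_one {a : ℕ} (ha : a < 256) : A 1 a = a := cc_M ha

theorem A_zero (g : Co0) : A g 0 = 0 := by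
  have := A_xor (g := g) (a := 0) (b := 0) (by norm_num) (by norm_num)
  rw [Nat.xor_self, Nat.xor_self] at this
  simpa using this

theorem A_inv {g : Co0} (hg : g ∈ C5) {a : ℕ} (ha : a < 256) : A g⁻¹ (A g a) = a := by
  rw [← A_mul hg ha, inv_mul_cancel, A_one ha]

theorem A_inj {g : Co0} (hg : g ∈ C5) {a b : ℕ} (ha : a < 256) (hb : b < 256) (h : A g a = A g b) : a = b := by
  rw [← A_inv hg ha, h, A_inv hg hb]

/-! ### The action on the lines -/

theorem exists_line {g : Co0} (hg : g ∈ C5) (t : Fin 5 ⊕ Fin 5) : ∃ t', (LL t).image (A g) = LL t' := by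
  apply rook
  · rw [Finset.card_image_of_injOn, R4]
    intro a ha b hb h
    exact A_inj hg ((R6 t).2 a ha).1 ((R6 t).2 b hb).1 h
  · intro s hs
    obtain ⟨a, -, rfl⟩ := Finset.mem_image.1 hs
    exact A_lt _ _
  · intro s hs hs0
    obtain ⟨a, ha, rfl⟩ := Finset.mem_image.1 hs
    have ha' := (R6 t).2 a ha
    have ha0 : a ≠ 0 := by
      rintro rfl
      exact hs0 (A_zero g)
    have h1 := (R1 a ha'.1).1.2 (ha'.2 ha0)
    exact (R1 _ (A_lt g a)).1.1 (A_norm hg ha'.1 h1)
  · intro s hs s' hs'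
    obtain ⟨a, ha, rfl⟩ := Finset.mem_image.1 hs
    obtain ⟨b, hb, rfl⟩ := Finset.mem_image.1 hs'
    rw [← A_xor ((R6 t).2 a ha).1 ((R6 t).2 b hb).1]
    exact Finset.mem_image_of_mem _ (R3 t a ha b hb)

/-- The action on the ten lines, as a function. -/
noncomputable def rhoF (g : C5) (t : Fin 5 ⊕ Fin 5) : Fin 5 ⊕ Fin 5 := Classical.choose (exists_line g.2 t)

theorem rhoF_spec (g : C5) (t : Fin 5 ⊕ Fin 5) : (LL t).image (A g) = LL (rhoF g t) :=
  Classical.choose_spec (exists_line g.2 t)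

theorem rhoF_mul (g h : C5) (t : Fin 5 ⊕ Fin 5) : rhoF (g * h) t = rhoF g (rhoF h t) := by
  apply R5
  rw [← rhoF_spec, ← rhoF_spec, ← rhoF_spec, Finset.image_image]
  apply Finset.image_congr
  intro a ha
  exact A_mul h.2 ((R6 t).2 a ha).1

/-- If the action on numbers is given on the line `t`, so is the image of the line. -/
theorem rhoF_eq (g : C5) {t t' : Fin 5 ⊕ Fin 5} (h : ∀ a ∈ LL t, A g a ∈ LL t') : rhoF g t = t' := by
  apply R5
  rw [← rhoF_spec]
  apply Finset.eq_of_subset_of_card_le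
  · intro b hb
    obtain ⟨a, ha, rfl⟩ := Finset.mem_image.1 hb
    exact h a ha
  · rw [Finset.card_image_of_injOn, R4, R4]
    intro a ha b hb h
    exact A_inj g.2 ((R6 t).2 a ha).1 ((R6 t).2 b hb).1 h

theorem rhoF_one (t : Fin 5 ⊕ Fin 5) : rhoF 1 t = t := by
  apply rhoF_eq
  intro a ha
  show A 1 a ∈ LL t
  rw [A_one ((R6 t).2 a ha).1]
  exact ha

/-- The action on the ten lines. -/
noncomputable def rho : C5 →* Equiv.Perm (Fin 5 ⊕ Fin 5) where
  toFun g :=
    { toFun := rhoF g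
      invFun := rhoF g⁻¹
      left_inv := fun t => by rw [← rhoF_mul, inv_mul_cancel, rhoF_one]
      right_inv := fun t => by rw [← rhoF_mul, mul_inv_cancel, rhoF_one] }
  map_one' := Equiv.ext rhoF_one
  map_mul' g h := Equiv.ext (rhoF_mul g h)

theorem rho_apply (g : C5) (t : Fin 5 ⊕ Fin 5) : rho g t = rhoF g t := rfl

/-- The value of the action, from the numbers. -/
theorem rho_of {g : C5} {u : Equiv.Perm (Fin 5 ⊕ Fin 5)} (h : ∀ t, ∀ a ∈ LL t, A g a ∈ LL (u t)) : rho g = u :=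
  Equiv.ext fun t => rhoF_eq g (h t)

/-- Elements acting trivially on the fixed classes act trivially on the lines. -/
theorem rho_trivial {g : C5} (h : ∀ a < 256, A g a = a) : rho g = 1 :=
  rho_of fun t a ha => by
    rw [h a ((R6 t).2 a ha).1]
    exact ha

end Cfsg.Agent.Lib.Five2
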