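import Mathlib
import Cfsg.Agent.Lib.Five2
import Cfsg.Prelude.Def_MonsterType

/-!
# Two explicit elements of the centralizer of `x5`: the image of the action on the ten lines contains
the wreath product of the alternating group of degree five by a group of order two.
-/

set_option autoImplicit false
set_option maxRecDepth 100000

open Cfsg Cfsg.Agent.Lib.Leech Cfsg.Agent.Lib.Co0Mono Cfsg.Agent.Lib.Co0Frame
open Cfsg.Agent.Lib.FiveData Cfsg.Agent.Lib.CoVec Cfsg.Agent.Lib.MonsterSplit Cfsg.Agent.Lib.Five1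
open Cfsg.Agent.Lib.Five2
open Cfsg.Agent.Lib.Golay (idx pt idx_pt pt_idx idx_lt idxL mem_idxL ap bit bit_eq ofMask mem_ofMask
  decode idx_decode isM24 decode_mem_M24 isM24_valid reduce)
open Cfsg.Agent.S0398 (e8 e8_apply toHom expand)

namespace Cfsg.Agent.Lib.Five3

/-- Elements of `Co0` are determined by their values on the frame. -/
theorem co0_ext_e8 {g h : Co0} (H : ∀ i, (g : Equiv.Perm leechLattice) (e8 i) = (h : Equiv.Perm leechLattice) (e8 i)) :
    g = h := by
  apply monoCo0_ext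
  intro v
  have h1 : (8 : ℤ) • toHom g v = (8 : ℤ) • toHom h v := by
    rw [← map_zsmul, ← map_zsmul, expand, map_sum, map_sum]
    apply Finset.sum_congr rfl
    intro i _
    rw [map_zsmul, map_zsmul]
    congr 1
    exact H i
  funext p
  have h2 := congrArg (fun a : leechLattice => (a : GolayPt → ℤ) p) h1
  simp only [AddSubgroup.coe_zsmul, Pi.smul_apply, smul_eq_mul] at h2
  have h3 : toHom g v = (g : Equiv.Perm leechLattice) v := rfl
  have h4 : toHom h v = (h : Equiv.Perm leechLattice) v := rfl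
  rw [h3, h4] at h2
  linarith

/-- The code of `8 e_i`. -/
def eN (i : ℕ) : ℕ := Nat.add 3150858910311745638317572730080710985337652928985868304512 (Nat.mul 8 (Nat.pow 256 i))

theorem eN_byte : ∀ i < 24, ∀ j < 24, byte (eN i) j = if j = i then 136 else 128 := by decide +kernel

theorem eN_lt : ∀ i < 24, Nat.blt (eN i) (2 ^ 192) = true := by decide +kernel

theorem dec_eN (p : GolayPt) : dec (eN (idx p)) = e8 p := by
  funext q
  rw [e8_apply]
  show ((byte (eN (idx p)) (idx q) : ℕ) : ℤ) - 128 = _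
  rw [eN_byte _ (idx_lt p) _ (idx_lt q)]
  by_cases h : q = p
  · rw [if_pos h, if_pos (by rw [h])]
    norm_num
  · rw [if_neg h, if_neg (fun e => h (Cfsg.Agent.Lib.Golay.idx_injective e))]
    norm_num

theorem eN_st (p : GolayPt) : St (eN (idx p)) := by
  refine ⟨?_, ?_, ?_⟩
  · have := eN_lt _ (idx_lt p)
    simpa [Nat.blt_eq] using this
  · rw [dec_eN]
    exact (e8 p).2
  · rw [dec_eN, sqNorm_e8]
    norm_num

theorem x5_acts : ActsOn x5 (actPerm c5) := by
  rw [x5_eq]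
  exact actPerm_acts c5_isM24

/-- The commutation can be checked on the frame. -/
theorem comm_of {g : Co0} {f : ℕ → ℕ} (hf : ActsOn g f)
    (h : ∀ i < 24, f (actPerm c5 (eN i)) = actPerm c5 (f (eN i))) : g ∈ C5 := by
  rw [mem_C5]
  apply co0_ext_e8
  intro p
  have h1 := hf.mul x5_acts (eN (idx p)) (eN_st p)
  have h2 := x5_acts.mul hf (eN (idx p)) (eN_st p)
  apply Subtype.ext
  have e : (⟨dec (eN (idx p)), (eN_st p).2.1⟩ : leechLattice) = e8 p := Subtype.ext (dec_eN p)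
  rw [e] at h1 h2
  rw [h1.2, h2.2]
  show dec (f (actPerm c5 (eN (idx p)))) = dec (actPerm c5 (f (eN (idx p))))
  rw [h _ (idx_lt p)]

/-- The number of the image of a vector. -/
theorem A_of {g : Co0} {f : ℕ → ℕ} (hf : ActsOn g f) (a : ℕ) : A g a = ccN (f (tab a)) := by
  unfold A
  rw [← cc_dec, ← (hf (tab a) (tab_st a)).2]
  rfl

/-! ### The first element -/

theorem g1_ok : isM24 g1c = true ∧ Nat.blt g1m (2 ^ 24) = true ∧ reduce g1m = 0 := by decide +kernel

theorem g1m_lt : g1m < 2 ^ 24 := by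
  have := g1_ok.2.1
  simpa [Nat.blt_eq] using this

/-- The first element. -/
noncomputable def g1 : Co0 := monoCo0 (ofMask_mem_codeSets g1m_lt g1_ok.2.2) (decode_mem_M24 g1_ok.1)

theorem g1_acts : ActsOn g1 (actMono g1c g1m) := actMono_spec g1_ok.1 g1m_lt g1_ok.2.2

theorem g1_mem : g1 ∈ C5 := comm_of g1_acts (by decide +kernel)

theorem g1_rho : rho ⟨g1, g1_mem⟩ = Equiv.sumComm (Fin 5) (Fin 5) := by
  apply rho_of
  intro t a ha
  show A g1 a ∈ _
  rw [A_of g1_acts]
  have h : ∀ t, ∀ a ∈ LL t, ccN (actMono g1c g1m (tab a)) ∈ LL (Equiv.sumComm (Fin 5) (Fin 5) t) := by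
    decide +kernel
  exact h t a ha

/-! ### The second element -/

theorem g2_ok : (isM24 g2ca = true ∧ Nat.blt g2ma (2 ^ 24) = true ∧ reduce g2ma = 0) ∧
    (isM24 g2cb = true ∧ Nat.blt g2mb (2 ^ 24) = true ∧ reduce g2mb = 0) ∧
    (isM24 g2cc = true ∧ Nat.blt g2mc (2 ^ 24) = true ∧ reduce g2mc = 0) := by decide +kernel

theorem g2ma_lt : g2ma < 2 ^ 24 := by
  have := g2_ok.1.2.1
  simpa [Nat.blt_eq] using this

theorem g2mb_lt : g2mb < 2 ^ 24 := by
  have := g2_ok.2.1.2.1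
  simpa [Nat.blt_eq] using this

theorem g2mc_lt : g2mc < 2 ^ 24 := by
  have := g2_ok.2.2.2.1
  simpa [Nat.blt_eq] using this

/-- The second element. -/
noncomputable def g2 : Co0 :=
  monoCo0 (ofMask_mem_codeSets g2ma_lt g2_ok.1.2.2) (decode_mem_M24 g2_ok.1.1) * xiCo0 *
    monoCo0 (ofMask_mem_codeSets g2mb_lt g2_ok.2.1.2.2) (decode_mem_M24 g2_ok.2.1.1) * xiCo0 *
    monoCo0 (ofMask_mem_codeSets g2mc_lt g2_ok.2.2.2.2) (decode_mem_M24 g2_ok.2.2.1)

/-- The action of the second element on codes. -/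
def f2 (n : ℕ) : ℕ := actMono g2ca g2ma (actXi (actMono g2cb g2mb (actXi (actMono g2cc g2mc n))))

theorem g2_acts : ActsOn g2 f2 :=
  (((((actMono_spec g2_ok.1.1 g2ma_lt g2_ok.1.2.2).mul actXi_acts).mul
    (actMono_spec g2_ok.2.1.1 g2mb_lt g2_ok.2.1.2.2)).mul actXi_acts).mul
    (actMono_spec g2_ok.2.2.1 g2mc_lt g2_ok.2.2.2.2))

theorem g2_mem : g2 ∈ C5 := comm_of g2_acts (by decide +kernel)

/-- The permutation on rows. -/
def cP : Equiv.Perm (Fin 5) := ⟨![0, 1, 4, 2, 3], ![0, 1, 3, 4, 2], by decide, by decide⟩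

/-- The permutation on columns. -/
def dP : Equiv.Perm (Fin 5) := ⟨![4, 3, 0, 2, 1], ![2, 4, 3, 1, 0], by decide, by decide⟩

theorem g2_rho : rho ⟨g2, g2_mem⟩ = Equiv.Perm.sumCongr cP dP := by
  apply rho_of
  intro t a ha
  show A g2 a ∈ _
  rw [A_of g2_acts]
  have h : ∀ t, ∀ a ∈ LL t, ccN (f2 (tab a)) ∈ LL (Equiv.Perm.sumCongr cP dP t) := by
    decide +kernel
  exact h t a ha

end Cfsg.Agent.Lib.Five3
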