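import Mathlib
import Cfsg.Agent.Lib.Five3
import Cfsg.Agent.Lib.GolayClasses

/-!
# The centralizer of `x5` modulo `⟨x5, -1⟩` is the wreath product of `A₅` by a group of order two.
-/

set_option autoImplicit false
set_option maxRecDepth 100000

open Cfsg Cfsg.Agent.Lib.Leech Cfsg.Agent.Lib.Co0Mono Cfsg.Agent.Lib.Co0Frame
open Cfsg.Agent.Lib.FiveData Cfsg.Agent.Lib.CoVec Cfsg.Agent.Lib.MonsterSplit Cfsg.Agent.Lib.Five1
open Cfsg.Agent.Lib.Five2 Cfsg.Agent.Lib.Five3
open Cfsg.Agent.Lib.Golay (idx pt idx_pt pt_idx idx_lt idxL mem_idxL ap bit bit_eq ofMask mem_ofMask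
  decode idx_decode isM24 decode_mem_M24 isM24_valid reduce S48L exists_S48_of_agree toMask RepBy repBy_decode)
open Cfsg.Agent.S0398 (e8 e8_apply neg_center)

namespace Cfsg.Agent.Lib.Five4

/-! ### The wreath product -/

/-- One word. -/
def vP : Equiv.Perm (Fin 5) := cP * cP * dP * dP * cP * dP

/-- Another word. -/
def wP : Equiv.Perm (Fin 5) := cP * dP * dP * cP * dP * cP

theorem a5_nf : ∀ σ : Equiv.Perm (Fin 5), Equiv.Perm.sign σ = 1 →
    ∃ i : Fin 5, ∃ j : Fin 3, ∃ k : Fin 2, ∃ l : Fin 2,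
      σ = dP ^ (i : ℕ) * cP ^ (j : ℕ) * vP ^ (k : ℕ) * wP ^ (l : ℕ) := by
  decide +kernel

theorem a5_le {S : Subgroup (Equiv.Perm (Fin 5))} (hc : cP ∈ S) (hd : dP ∈ S) {σ : Equiv.Perm (Fin 5)}
    (hσ : σ ∈ alternatingGroup (Fin 5)) : σ ∈ S := by
  obtain ⟨i, j, k, l, rfl⟩ := a5_nf σ (Equiv.Perm.mem_alternatingGroup.1 hσ)
  have hv : vP ∈ S := by
    unfold vP
    exact S.mul_mem (S.mul_mem (S.mul_mem (S.mul_mem (S.mul_mem hc hc) hd) hd) hc) hd
  have hw : wP ∈ S := by
    unfold wP
    exact S.mul_mem (S.mul_mem (S.mul_mem (S.mul_mem (S.mul_mem hc hd) hd) hc) hd) hc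
  exact S.mul_mem (S.mul_mem (S.mul_mem (S.pow_mem hd _) (S.pow_mem hc _)) (S.pow_mem hv _)) (S.pow_mem hw _)

theorem swap_conj (a b : Equiv.Perm (Fin 5)) :
    Equiv.sumComm (Fin 5) (Fin 5) * Equiv.Perm.sumCongr a b * Equiv.sumComm (Fin 5) (Fin 5) = Equiv.Perm.sumCongr b a := by
  ext t
  cases t <;> rfl

theorem W_le : alternatingFiveWreathTwo ≤ rho.range := by
  set I := rho.range with hI
  have hsw : (Equiv.sumComm (Fin 5) (Fin 5) : Equiv.Perm (Fin 5 ⊕ Fin 5)) ∈ I := ⟨_, g1_rho⟩
  have hu : Equiv.Perm.sumCongr cP dP ∈ I := ⟨_, g2_rho⟩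
  have h1 : Equiv.Perm.sumCongr cP 1 ∈ I := by
    have e : (Equiv.Perm.sumCongr cP dP) ^ 10 = Equiv.Perm.sumCongr cP 1 := by decide +kernel
    rw [← e]
    exact I.pow_mem hu _
  have h2 : Equiv.Perm.sumCongr 1 dP ∈ I := by
    have e : (Equiv.Perm.sumCongr cP dP) ^ 6 = Equiv.Perm.sumCongr 1 dP := by decide +kernel
    rw [← e]
    exact I.pow_mem hu _
  have hswap : ∀ {a b : Equiv.Perm (Fin 5)}, Equiv.Perm.sumCongr a b ∈ I → Equiv.Perm.sumCongr b a ∈ I := by
    intro a b h
    rw [← swap_conj]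
    exact I.mul_mem (I.mul_mem hsw h) hsw
  let S₁ : Subgroup (Equiv.Perm (Fin 5)) := I.comap ((Equiv.Perm.sumCongrHom (Fin 5) (Fin 5)).comp (MonoidHom.inl _ _))
  have hS₁ : ∀ {σ}, σ ∈ S₁ ↔ Equiv.Perm.sumCongr σ 1 ∈ I := fun {σ} => Iff.rfl
  have h3 : ∀ {σ : Equiv.Perm (Fin 5)}, σ ∈ alternatingGroup (Fin 5) → Equiv.Perm.sumCongr σ 1 ∈ I := by
    intro σ hσ
    apply hS₁.1
    exact a5_le (hS₁.2 h1) (hS₁.2 (hswap h2)) hσ
  unfold alternatingFiveWreathTwo
  rw [Subgroup.closure_le]
  rintro x (⟨σ, τ, rfl⟩ | hx)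
  · have e : Equiv.Perm.sumCongr (σ : Equiv.Perm (Fin 5)) (τ : Equiv.Perm (Fin 5)) =
        Equiv.Perm.sumCongr (σ : Equiv.Perm (Fin 5)) 1 * Equiv.Perm.sumCongr 1 (τ : Equiv.Perm (Fin 5)) := by
      ext t
      cases t <;> rfl
    rw [e]
    exact I.mul_mem (h3 σ.2) (hswap (h3 τ.2))
  · rw [Set.mem_singleton_iff.1 hx]
    exact hsw

theorem card_A5 : Nat.card (alternatingGroup (Fin 5)) = 60 := by
  rw [Nat.card_eq_fintype_card]
  decide +kernel

theorem card_W : 7200 ≤ Nat.card alternatingFiveWreathTwo := by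
  let f : (alternatingGroup (Fin 5) × alternatingGroup (Fin 5)) × Bool → alternatingFiveWreathTwo := fun p =>
    if p.2 then
      ⟨Equiv.Perm.sumCongr (p.1.1 : Equiv.Perm (Fin 5)) (p.1.2 : Equiv.Perm (Fin 5)) * Equiv.sumComm (Fin 5) (Fin 5),
        Subgroup.mul_mem _ (Subgroup.subset_closure (Or.inl ⟨p.1.1, p.1.2, rfl⟩))
          (Subgroup.subset_closure (Or.inr rfl))⟩
    else
      ⟨Equiv.Perm.sumCongr (p.1.1 : Equiv.Perm (Fin 5)) (p.1.2 : Equiv.Perm (Fin 5)),
        Subgroup.subset_closure (Or.inl ⟨p.1.1, p.1.2, rfl⟩)⟩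
  have hf : Function.Injective f := by
    rintro ⟨⟨a, b⟩, β⟩ ⟨⟨c, d⟩, γ⟩ h
    cases β <;> cases γ
    · have h1 : Equiv.Perm.sumCongr (a : Equiv.Perm (Fin 5)) (b : Equiv.Perm (Fin 5)) =
          Equiv.Perm.sumCongr (c : Equiv.Perm (Fin 5)) (d : Equiv.Perm (Fin 5)) := congrArg Subtype.val h
      have h2 : a = c := Subtype.ext (Equiv.ext fun i => by
        have := Equiv.congr_fun h1 (Sum.inl i)
        simpa using this)
      have h3 : b = d := Subtype.ext (Equiv.ext fun i => by
        have := Equiv.congr_fun h1 (Sum.inr i)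
        simpa using this)
      rw [h2, h3]
    · exfalso
      have h1 : Equiv.Perm.sumCongr (a : Equiv.Perm (Fin 5)) (b : Equiv.Perm (Fin 5)) =
          Equiv.Perm.sumCongr (c : Equiv.Perm (Fin 5)) (d : Equiv.Perm (Fin 5)) * Equiv.sumComm (Fin 5) (Fin 5) := congrArg Subtype.val h
      have := Equiv.congr_fun h1 (Sum.inl 0)
      simp at this
    · exfalso
      have h1 : Equiv.Perm.sumCongr (a : Equiv.Perm (Fin 5)) (b : Equiv.Perm (Fin 5)) * Equiv.sumComm (Fin 5) (Fin 5) =
          Equiv.Perm.sumCongr (c : Equiv.Perm (Fin 5)) (d : Equiv.Perm (Fin 5)) := congrArg Subtype.val h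
      have := Equiv.congr_fun h1 (Sum.inl 0)
      simp at this
    · have h1 : Equiv.Perm.sumCongr (a : Equiv.Perm (Fin 5)) (b : Equiv.Perm (Fin 5)) * Equiv.sumComm (Fin 5) (Fin 5) =
          Equiv.Perm.sumCongr (c : Equiv.Perm (Fin 5)) (d : Equiv.Perm (Fin 5)) * Equiv.sumComm (Fin 5) (Fin 5) := congrArg Subtype.val h
      have h2 := mul_right_cancel h1
      have h3 : a = c := Subtype.ext (Equiv.ext fun i => by
        have := Equiv.congr_fun h2 (Sum.inl i)
        simpa using this)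
      have h4 : b = d := Subtype.ext (Equiv.ext fun i => by
        have := Equiv.congr_fun h2 (Sum.inr i)
        simpa using this)
      rw [h3, h4]
  have hfin : Finite alternatingFiveWreathTwo := inferInstance
  have := Nat.card_le_card_of_injective f hf
  rw [Nat.card_prod, Nat.card_prod, card_A5, Nat.card_eq_fintype_card (α := Bool), Fintype.card_bool] at this
  omega

/-! ### The stabilizer of the frame -/

theorem tab175 : tab 175 = eN 5 := by decide +kernel

theorem M175 : M 175 = e8 (pt 5) := by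
  apply Subtype.ext
  rw [M_coe, tab175]
  exact dec_eN (pt 5)

/-- The mask of a union of orbits. -/
def dOf (b : ℕ) : ℕ := Nat.ofBits (fun i : Fin 24 => b.testBit (cidL.getD i 0))

theorem testBit_dOf (b : ℕ) (p : GolayPt) : (dOf b).testBit (idx p) = b.testBit (cidL.getD (idx p) 0) := by
  unfold dOf
  rw [Nat.testBit_ofBits_lt _ _ (idx_lt p)]

/-- The invariant sets of the code. -/
def D5L : Finset ℕ := (Finset.range 256).filter (fun b => reduce (dOf b) = 0)

theorem card_D5L : D5L.card = 16 := by decide +kernel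

/-- The invariant sets of the code. -/
noncomputable def D5F : Finset (Finset GolayPt) := D5L.image (fun b => ofMask (dOf b))

theorem card_D5F : D5F.card ≤ 16 := by
  rw [← card_D5L]
  exact Finset.card_image_le

theorem cid_val : ∀ i < 24, cidL.getD i 0 < 8 := by decide +kernel

theorem mem_D5F {c : Finset GolayPt} (hc : c ∈ codeSets) (hinv : ∀ p, xi5 p ∈ c ↔ p ∈ c) : c ∈ D5F := by
  classical
  set b : ℕ := Nat.ofBits (fun j : Fin 8 => decide (rep j ∈ c)) with hb
  have hblt : b < 256 := Nat.ofBits_lt_two_pow (n := 8) _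
  have hx : ∀ p, (if xi5 p ∈ c then (1 : ℤ) else 0) = if p ∈ c then 1 else 0 := by
    intro p
    by_cases h : p ∈ c
    · rw [if_pos h, if_pos ((hinv p).2 h)]
    · rw [if_neg h, if_neg (fun e => h ((hinv p).1 e))]
  have hrep : ∀ p, p ∈ c ↔ rep (cid p) ∈ c := by
    intro p
    have := eq_rep (x := fun p => if p ∈ c then (1 : ℤ) else 0) hx p
    by_cases h : p ∈ c <;> by_cases h' : rep (cid p) ∈ c <;> simp_all
  have hbit : ∀ p, (dOf b).testBit (idx p) = decide (p ∈ c) := by
    intro p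
    rw [testBit_dOf]
    have h1 := cid_val _ (idx_lt p)
    have h2 : (cid p : ℕ) = cidL.getD (idx p) 0 := by
      show (cidL.getD (idx p) 0) % 8 = _
      exact Nat.mod_eq_of_lt h1
    rw [← h2, hb, Nat.testBit_ofBits_lt _ _ (cid p).2]
    simp only [Fin.eta]
    exact decide_eq_decide.2 (hrep p).symm
  have hc' : ofMask (dOf b) = c := by
    ext p
    rw [mem_ofMask, hbit]
    simp
  refine Finset.mem_image.2 ⟨b, Finset.mem_filter.2 ⟨Finset.mem_range.2 hblt, ?_⟩, hc'⟩
  have h3 := (Cfsg.Agent.Lib.Golay.mem_supports_iff c).1 hc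
  have hd : dOf b < 2 ^ 24 := Nat.ofBits_lt_two_pow _
  rw [← hc', Cfsg.Agent.Lib.Golay.toMask_ofMask hd] at h3
  exact h3

/-- The elements of the five-point stabilizer commuting with the permutation. -/
def S3 : List ℕ := S48L.filter (fun s => idxL.all fun i => Nat.beq (ap s (ap c5 i)) (ap c5 (ap s i)))

theorem S3_len : S3.toFinset.card ≤ 3 := by decide +kernel

/-- The transversal. -/
def U (a : ℕ) : ℕ := UL.getD a 0

theorem U_ok : ∀ a < 24, ap c5 a ≠ a → isM24 (U a) = true ∧ ap (U a) 23 = a ∧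
    idxL.all (fun i => Nat.beq (ap (U a) (ap c5 i)) (ap c5 (ap (U a) i))) = true := by
  decide +kernel

theorem moved_card : ((Finset.range 24).filter (fun a => ap c5 a ≠ a)).card = 20 := by decide +kernel

/-- The centralizer in `M24`. -/
noncomputable def S5F : Finset (Equiv.Perm GolayPt) :=
  (((Finset.range 24).filter (fun a => ap c5 a ≠ a)) ×ˢ S3.toFinset).image
    (fun p => decode (U p.1) * decode p.2)

theorem card_S5F : S5F.card ≤ 60 := by
  refine Finset.card_image_le.trans ?_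
  rw [Finset.card_product, moved_card]
  have := S3_len
  omega

theorem chain5 : ap c5 23 = 0 ∧ ap c5 0 = 1 ∧ ap c5 1 = 2 ∧ ap c5 2 = 3 := by decide +kernel

theorem mem_S5F {σ : Equiv.Perm GolayPt} (hσ : σ ∈ M24) (hc : σ * xi5 = xi5 * σ) : σ ∈ S5F := by
  classical
  have hcp : ∀ p, σ (xi5 p) = xi5 (σ p) := fun p => Equiv.congr_fun hc p
  set a := idx (σ (pt 23)) with ha
  have hσa : σ (pt 23) = pt a := (Cfsg.Agent.Lib.Golay.pt_idx _).symm
  have halt : a < 24 := idx_lt _
  have hmov : ap c5 a ≠ a := by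
    intro h
    have h1 : xi5 (pt a) = pt a := by rw [xi5_pt halt, h]
    have h2 := hcp (pt 23)
    rw [hσa, h1, ← hσa] at h2
    have h3 := σ.injective h2
    rw [xi5_pt (by norm_num), chain5.1] at h3
    have h4 := Cfsg.Agent.Lib.Golay.pt_injOn (by norm_num) (by norm_num) h3
    omega
  obtain ⟨hU1, hU2, hU3⟩ := U_ok a halt hmov
  have hv := isM24_valid hU1
  have hu : decode (U a) * xi5 = xi5 * decode (U a) := by
    have hx : RepBy xi5 (ap c5) := idx_xi5
    refine Cfsg.Agent.Lib.Golay.comm_of_repBy (repBy_decode hv) hx hx ?_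
    intro i hi
    exact Nat.eq_of_beq_eq_true ((List.all_eq_true.1 hU3) i (mem_idxL.2 hi))
  have hup : ∀ p, decode (U a) (xi5 p) = xi5 (decode (U a) p) := fun p => Equiv.congr_fun hu p
  have h23 : σ (pt 23) = decode (U a) (pt 23) := by
    rw [Cfsg.Agent.Lib.Golay.decode_pt hv (by norm_num), hU2, hσa]
  have hstep : ∀ {i j : ℕ}, i < 24 → ap c5 i = j → σ (pt i) = decode (U a) (pt i) → σ (pt j) = decode (U a) (pt j) := by
    intro i j hi hj h
    rw [← hj, ← xi5_pt hi, hcp, hup, h]
  obtain ⟨e1, e2, e3, e4⟩ := chain5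
  have h0 := hstep (by norm_num) e1 h23
  have h1 := hstep (by norm_num) e2 h0
  have h2 := hstep (by norm_num) e3 h1
  have h3 := hstep (by norm_num) e4 h2
  obtain ⟨s, hs, hσs⟩ := exists_S48_of_agree hσ (decode_mem_M24 hU1) (by
    intro i hi
    simp only [List.mem_cons, List.not_mem_nil, or_false] at hi
    rcases hi with rfl | rfl | rfl | rfl | rfl
    · exact h3
    · exact h2
    · exact h1
    · exact h0
    · exact h23)
  have hsv : Cfsg.Agent.Lib.Golay.valid s = true :=
    isM24_valid (Cfsg.Agent.Lib.Golay.S48L_isM24 s hs)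
  have hs2 : decode s * xi5 = xi5 * decode s := by
    have h5 : decode (U a) * (decode s * xi5) = decode (U a) * (xi5 * decode s) := by
      calc decode (U a) * (decode s * xi5) = (decode (U a) * decode s) * xi5 := by group
        _ = xi5 * (decode (U a) * decode s) := by rw [← hσs]; exact hc
        _ = (xi5 * decode (U a)) * decode s := by group
        _ = (decode (U a) * xi5) * decode s := by rw [hu]
        _ = decode (U a) * (xi5 * decode s) := by group
    exact mul_left_cancel h5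
  have hsS3 : s ∈ S3 := by
    refine List.mem_filter.2 ⟨hs, List.all_eq_true.2 fun i hi => ?_⟩
    have hi' := mem_idxL.1 hi
    have h6 := Equiv.congr_fun hs2 (pt i)
    have h7 := congrArg idx h6
    simp only [Equiv.Perm.mul_apply] at h7
    rw [idx_decode hsv, idx_xi5, idx_xi5, idx_decode hsv, idx_pt hi'] at h7
    simpa using h7
  exact Finset.mem_image.2 ⟨(a, s), Finset.mem_product.2 ⟨Finset.mem_filter.2 ⟨Finset.mem_range.2 halt, hmov⟩, List.mem_toFinset.2 hsS3⟩, hσs.symm⟩

/-- The elements of the centralizer of `x5` fixing the class of the frame are few. -/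
theorem exists_mono_stab {g : Co0} (hg : g ∈ C5) (h : A g 175 = 175) :
    ∃ p ∈ D5F ×ˢ S5F, ∃ (hc : p.1 ∈ codeSets) (hσ : p.2 ∈ M24), g = monoCo0 hc hσ := by
  classical
  have h1 := fix_map hg (fixCl_M (a := 175) (by norm_num))
  have h2 : cc ((g : Equiv.Perm leechLattice) (M 175) : leechLattice) = cc (M 175 : GolayPt → ℤ) := by
    rw [cc_M (by norm_num)]
    exact h
  obtain ⟨u, hu⟩ := cong_of_cc h1 (fixCl_M (by norm_num)) h2
  rw [M175] at hu
  obtain ⟨c, σ, hc, hσ, rfl⟩ := exists_mono_of_cong hu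
  have hcomm := mem_C5.1 hg
  unfold x5 at hcomm
  rw [monoCo0_mul, monoCo0_mul] at hcomm
  obtain ⟨h3, h4⟩ := monoCo0_part_eq hcomm
  have h5 : c = c.image (xi5⁻¹ : Equiv.Perm GolayPt) := by
    rw [Finset.image_empty] at h3
    have e1 : symmDiff c ∅ = c := by
      ext q
      simp [Finset.mem_symmDiff]
    have e2 : ∀ x : Finset GolayPt, symmDiff ∅ x = x := by
      intro x
      ext q
      simp [Finset.mem_symmDiff]
    rw [e1, e2] at h3
    exact h3
  refine ⟨(c, σ), Finset.mem_product.2 ⟨mem_D5F hc ?_, mem_S5F hσ h4.symm⟩, hc, hσ, rfl⟩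
  intro p
  constructor
  · intro hp
    rw [h5]
    exact Finset.mem_image.2 ⟨xi5 p, hp, by simp⟩
  · intro hp
    rw [h5] at hp
    obtain ⟨q, hq, e⟩ := Finset.mem_image.1 hp
    have : q = xi5 p := by
      rw [← e]
      simp
    rw [← this]
    exact hq

/-- The action of the centralizer on the numbers. -/
noncomputable def actFin : MulAction C5 (Fin 256) where
  smul g a := ⟨A g a, A_lt _ _⟩
  one_smul a := Fin.ext (A_one a.2)
  mul_smul g h a := Fin.ext (A_mul h.2 a.2)

theorem card_frames : ((Finset.univ : Finset (Fin 256)).filter (fun a : Fin 256 => rw (a : ℕ) < 5)).card = 75 := by decide +kernel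

theorem card_C5_le : Nat.card C5 ≤ 72000 := by
  classical
  letI := actFin
  let a₀ : Fin 256 := ⟨175, by norm_num⟩
  have h1 : (MulAction.stabilizer C5 a₀).index = (MulAction.orbit C5 a₀).ncard := MulAction.index_stabilizer _ _
  have h2 : (MulAction.orbit C5 a₀).ncard ≤ 75 := by
    rw [← card_frames, ← Set.ncard_coe_finset]
    apply Set.ncard_le_ncard _ (Finset.finite_toSet _)
    rintro _ ⟨g, rfl⟩
    have h3 : nt 175 = 64 := by decide +kernel
    have h4 := A_norm g.2 (a := 175) (by norm_num) h3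
    have h5 := (R1 _ (A_lt (g : Co0) 175)).1.1 h4
    exact Finset.mem_coe.2 (Finset.mem_filter.2 ⟨Finset.mem_univ _, h5⟩)
  have h3 : Nat.card (MulAction.stabilizer C5 a₀) ≤ 960 := by
    have hex : ∀ g : MulAction.stabilizer C5 a₀, ∃ p : ↥(D5F ×ˢ S5F), ∃ (hc : p.1.1 ∈ codeSets) (hσ : p.1.2 ∈ M24),
        ((g : C5) : Co0) = monoCo0 hc hσ := by
      intro g
      have hg : A ((g : C5) : Co0) 175 = 175 := by
        have h7 : (g : C5) • a₀ = a₀ := MulAction.mem_stabilizer_iff.1 g.2
        exact congrArg Fin.val h7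
      obtain ⟨p, hp, hc, hσ, e⟩ := exists_mono_stab (g : C5).2 hg
      exact ⟨⟨p, hp⟩, hc, hσ, e⟩
    choose f hf1 hf2 hf3 using hex
    have hinj : Function.Injective f := by
      intro g g' h
      apply Subtype.ext
      apply Subtype.ext
      rw [hf3 g, hf3 g']
      apply monoCo0_congr
      · rw [h]
      · rw [h]
    have h4 := Nat.card_le_card_of_injective f hinj
    have h8 : Nat.card ↥(D5F ×ˢ S5F) = (D5F ×ˢ S5F).card := by
      rw [Nat.card_eq_fintype_card, Fintype.card_coe]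
    rw [h8, Finset.card_product] at h4
    have h5 := card_D5F
    have h6 := card_S5F
    calc _ ≤ D5F.card * S5F.card := h4
      _ ≤ 16 * 60 := Nat.mul_le_mul h5 h6
      _ = 960 := by norm_num
  have h4 := Subgroup.card_mul_index (MulAction.stabilizer C5 a₀)
  rw [← h4, h1]
  calc _ ≤ 960 * 75 := Nat.mul_le_mul h3 h2
    _ = 72000 := by norm_num

/-! ### The kernel -/

/-- `x5` in its centralizer. -/
noncomputable def x5C : C5 := ⟨x5, mem_C5.2 rfl⟩

/-- Negation in the centralizer. -/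
noncomputable def negC : C5 := ⟨negCo0, mem_C5.2 (Subgroup.mem_center_iff.1 neg_center x5).symm⟩

theorem rho_x5 : rho x5C = 1 := by
  apply rho_trivial
  intro a ha
  show cc ((x5 : Equiv.Perm leechLattice) (M a) : leechLattice) = a
  rw [x5_M ha, cc_M ha]

theorem cc_neg (v : leechLattice) : cc ((-v : leechLattice) : GolayPt → ℤ) = cc (v : GolayPt → ℤ) := by
  have h : -v = v + (-v + -v) := by abel
  rw [h, cc_congr]

theorem rho_neg : rho negC = 1 := by
  apply rho_trivial
  intro a ha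
  show cc ((negCo0 : Equiv.Perm leechLattice) (M a) : leechLattice) = a
  rw [negCo0_apply, cc_neg, cc_M ha]

theorem x5_pow_five : x5C ^ 5 = 1 := by
  apply Subtype.ext
  apply monoCo0_ext
  intro v
  show (((x5 ^ 5 : Co0) : Equiv.Perm leechLattice) v : GolayPt → ℤ) = v
  have h : x5 ^ 5 = x5 * (x5 * (x5 * (x5 * (x5 * 1)))) := by
    simp only [pow_succ, pow_zero, mul_assoc, one_mul, mul_one]
  rw [h]
  exact congrArg Subtype.val (x5_five v)

theorem x5_ne_one : x5C ≠ 1 := by
  intro h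
  have h1 : x5 = 1 := congrArg Subtype.val h
  have h2 := congrFun (congrArg Subtype.val (congrArg (fun g : Co0 => (g : Equiv.Perm leechLattice) (e8 (pt 0))) h1)) (pt 0)
  have h3 : (((x5 : Equiv.Perm leechLattice) (e8 (pt 0)) : leechLattice) : GolayPt → ℤ) (pt 0) = 0 := by
    rw [x5_apply, e8_apply, if_neg]
    rw [xi5_pt (by norm_num)]
    intro e
    have : ap c5 0 = 0 := Cfsg.Agent.Lib.Golay.pt_injOn (ap5_lt (by norm_num)) (by norm_num) e
    rw [chain5.2.1] at this
    omega
  have h4 : (((1 : Co0) : Equiv.Perm leechLattice) (e8 (pt 0)) : GolayPt → ℤ) (pt 0) = 8 := by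
    show (e8 (pt 0) : GolayPt → ℤ) (pt 0) = 8
    rw [e8_apply, if_pos rfl]
  have h5 : (((x5 : Equiv.Perm leechLattice) (e8 (pt 0)) : leechLattice) : GolayPt → ℤ) (pt 0) =
      (((1 : Co0) : Equiv.Perm leechLattice) (e8 (pt 0)) : GolayPt → ℤ) (pt 0) := h2
  rw [h3, h4] at h5
  omega

theorem orderOf_x5C : orderOf x5C = 5 :=
  haveI : Fact (Nat.Prime 5) := ⟨by norm_num⟩
  orderOf_eq_prime x5_pow_five x5_ne_one

/-- The elements of the kernel. -/
noncomputable def kerMap : Fin 5 × Bool → rho.ker := fun p =>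
  ⟨x5C ^ (p.1 : ℕ) * (if p.2 then negC else 1), by
    rw [MonoidHom.mem_ker, map_mul, map_pow, rho_x5, one_pow, one_mul]
    split_ifs
    · exact rho_neg
    · exact map_one _⟩

theorem x5_e8 : (x5 : Equiv.Perm leechLattice) (e8 (pt 5)) = e8 (pt 5) := by
  have := x5_M (a := 175) (by norm_num)
  rwa [M175] at this

theorem kerMap_inj : Function.Injective kerMap := by
  have hfix : ∀ k : ℕ, ((x5C ^ k : C5) : Co0).1 (e8 (pt 5)) = e8 (pt 5) := by
    intro k
    induction k with
    | zero => rfl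
    | succ k ih =>
      rw [pow_succ]
      show ((x5C ^ k : C5) : Co0).1 ((x5 : Equiv.Perm leechLattice) (e8 (pt 5))) = _
      rw [x5_e8, ih]
  have hne : (e8 (pt 5) : leechLattice) ≠ -e8 (pt 5) := by
    intro h
    have := congrFun (congrArg Subtype.val h) (pt 5)
    simp only [AddSubgroup.coe_neg, Pi.neg_apply, e8_apply, if_true] at this
    omega
  rintro ⟨i, β⟩ ⟨j, γ⟩ h
  have h1 : x5C ^ (i : ℕ) * (if β then negC else 1) = x5C ^ (j : ℕ) * (if γ then negC else 1) := congrArg Subtype.val h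
  have hval : ∀ (k : ℕ) (b : Bool), ((x5C ^ k * (if b then negC else 1) : C5) : Co0).1 (e8 (pt 5)) =
      if b then -e8 (pt 5) else e8 (pt 5) := by
    intro k b
    cases b
    · simp only [Bool.false_eq_true, if_false, mul_one]
      exact hfix k
    · simp only [if_true]
      show ((x5C ^ k : C5) : Co0).1 (-(e8 (pt 5))) = _
      rw [co0_neg, hfix]
  have h2 := congrArg (fun g : C5 => (g : Co0).1 (e8 (pt 5))) h1
  simp only [hval] at h2
  have hβ : β = γ := by
    cases β <;> cases γ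
    · rfl
    · simp only [Bool.false_eq_true, if_false, if_true] at h2
      exact absurd h2 hne
    · simp only [Bool.false_eq_true, if_false, if_true] at h2
      exact absurd h2.symm hne
    · rfl
  subst hβ
  have h3 := mul_right_cancel h1
  have h4 : (i : ℕ) = j := by
    have hlt : ∀ k : Fin 5, (k : ℕ) ∈ Set.Iio (orderOf x5C) := by
      intro k
      rw [orderOf_x5C]
      exact k.2
    exact pow_injOn_Iio_orderOf (hlt i) (hlt j) h3
  rw [Fin.ext h4]

/-- The main facts. -/
theorem rho_main : rho.range = alternatingFiveWreathTwo ∧ Function.Surjective kerMap := by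
  have h1 := Subgroup.card_mul_index rho.ker
  have h2 : rho.ker.index = Nat.card rho.range := Subgroup.index_ker rho
  have h3 := card_C5_le
  have h4 : 10 ≤ Nat.card rho.ker := by
    have := Nat.card_le_card_of_injective kerMap kerMap_inj
    rw [Nat.card_prod, Nat.card_eq_fintype_card (α := Fin 5), Nat.card_eq_fintype_card (α := Bool),
      Fintype.card_fin, Fintype.card_bool] at this
    exact this
  have h5 : Nat.card alternatingFiveWreathTwo ≤ Nat.card rho.range := Subgroup.card_le_of_le W_le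
  have h6 := card_W
  rw [h2] at h1
  have h7 : Nat.card rho.range ≤ 7200 := by
    by_contra hcon
    have h8 : 7201 ≤ Nat.card rho.range := by omega
    have h9 := Nat.mul_le_mul h4 h8
    omega
  have h8 : Nat.card rho.ker ≤ 10 := by
    by_contra hcon
    have h9 : 11 ≤ Nat.card rho.ker := by omega
    have h10 : 7200 ≤ Nat.card rho.range := by omega
    have h11 := Nat.mul_le_mul h9 h10
    omega
  refine ⟨(Subgroup.eq_of_le_of_card_ge W_le (by omega)).symm, ?_⟩
  have h9 : Nat.card rho.ker ≤ Nat.card (Fin 5 × Bool) := by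
    rw [Nat.card_prod, Nat.card_eq_fintype_card (α := Fin 5), Nat.card_eq_fintype_card (α := Bool),
      Fintype.card_fin, Fintype.card_bool]
    exact h8
  exact (Function.Injective.bijective_of_nat_card_le kerMap_inj h9).2

theorem rho_range : rho.range = alternatingFiveWreathTwo := rho_main.1

/-- The kernel of the action on the lines. -/
theorem rho_ker {g : C5} (h : rho g = 1) : ∃ i : ℕ, g = x5C ^ i ∨ g = x5C ^ i * negC := by
  obtain ⟨⟨i, β⟩, hp⟩ := rho_main.2 ⟨g, h⟩
  have h1 : x5C ^ (i : ℕ) * (if β then negC else 1) = g := congrArg Subtype.val hp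
  refine ⟨i, ?_⟩
  cases β
  · left
    simpa using h1.symm
  · right
    simpa using h1.symm

end Cfsg.Agent.Lib.Five4
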