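import Mathlib
import Cfsg.Agent.Lib.Class2Det
import Cfsg.Agent.Lib.Glauberman
import Cfsg.Agent.Lib.Frat
import Cfsg.Agent.Lib.CharTwoLocal
import Cfsg.Agent.Lib.CoprimeMin

/-!
# The Baer sum on a group of class two and odd prime exponent.

`x + y = x y [y, x]^((p+1)/2)` is an abelian group structure preserved by all automorphisms.  Averaging over
a group `Q` of automorphisms of order prime to `p` gives: an automorphism `θ` of `p`-power order normalizing `Q`
has a fixed point not fixed by `Q`, if `Q` acts nontrivially.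
-/

set_option autoImplicit false
set_option linter.unusedSectionVars false
set_option linter.style.haveILetI false
set_option linter.unusedVariables false

open Subgroup
open scoped commutatorElement

namespace Cfsg.Agent.Lib.FixedLie

section Sum

variable {U : Type*} [Group U] {p : ℕ} [hp : Fact p.Prime]

/-- The Baer sum. -/
def bsum (p : ℕ) (x y : U) : U := x * y * ⁅y, x⁆ ^ ((p + 1) / 2)

variable (hcl : ∀ x y : U, ⁅x, y⁆ ∈ center U) (hexp : ∀ x : U, x ^ p = 1) (hp2 : p ≠ 2)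

include hcl in
theorem comm_central (x y g : U) : g * ⁅x, y⁆ = ⁅x, y⁆ * g :=
  (mem_center_iff.mp (hcl x y)) g

include hcl hexp in
theorem comm_pow_p (x y : U) : ⁅x, y⁆ ^ p = 1 := by
  rw [← Cfsg.Agent.Lib.Class2Det.comm_pow_left hcl, hexp, commutatorElement_one_left]

include hcl hexp hp2 in
theorem comm_double (x y : U) : (⁅x, y⁆ ^ ((p + 1) / 2)) * (⁅x, y⁆ ^ ((p + 1) / 2)) = ⁅x, y⁆ := by
  have hodd : Odd p := hp.out.odd_of_ne_two hp2
  obtain ⟨s, hs⟩ := hodd
  have e : (p + 1) / 2 + (p + 1) / 2 = p + 1 := by omega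
  rw [← pow_add, e, pow_succ, comm_pow_p hcl hexp, one_mul]

include hcl in
theorem comm_self_pow (x : U) (n : ℕ) : ⁅x, x ^ n⁆ = 1 := by
  rw [commutatorElement_eq_one_iff_mul_comm]
  exact (Commute.refl x).pow_right n |>.eq

include hcl hexp hp2 in
theorem bsum_comm (x y : U) : bsum p x y = bsum p y x := by
  unfold bsum
  -- `y x = ⁅y, x⁆ x y`
  have e1 : y * x = ⁅y, x⁆ * (x * y) := by
    simp only [commutatorElement_def]
    group
  have e2 : ⁅x, y⁆ = ⁅y, x⁆⁻¹ := (commutatorElement_inv y x).symm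
  have h1 := comm_double hcl hexp hp2 y x
  have h2 : ⁅x, y⁆ ^ ((p + 1) / 2) = (⁅y, x⁆ ^ ((p + 1) / 2))⁻¹ := by
    rw [e2, inv_pow]
  rw [e1, h2]
  obtain ⟨c, hc⟩ : ∃ c, c = ⁅y, x⁆ := ⟨_, rfl⟩
  rw [← hc] at h1 ⊢
  obtain ⟨d, hd⟩ : ∃ d, d = c ^ ((p + 1) / 2) := ⟨_, rfl⟩
  rw [← hd] at h1 ⊢
  have hc2 : ∀ g : U, g * c = c * g := by
    intro g
    rw [hc]
    exact comm_central hcl y x g
  -- `c = d * d`
  rw [← h1]
  have hd2 : ∀ g : U, g * d = d * g := by
    intro g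
    rw [hd]
    exact ((show Commute g c from hc2 g).pow_right _).eq
  calc x * y * d = d * (x * y) := hd2 _
    _ = d * ((x * y) * d) * d⁻¹ := by group
    _ = d * (d * (x * y)) * d⁻¹ := by rw [hd2 (x * y)]
    _ = d * d * (x * y) * d⁻¹ := by group

include hcl in
theorem comm_mul_left' (x y z : U) : ⁅x * y, z⁆ = ⁅x, z⁆ * ⁅y, z⁆ :=
  Cfsg.Agent.Lib.Class2Det.comm_mul_left hcl x y z

include hcl in
theorem comm_mul_right' (x y z : U) : ⁅x, y * z⁆ = ⁅x, y⁆ * ⁅x, z⁆ :=
  Cfsg.Agent.Lib.Class2Det.comm_mul_right hcl x y z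

include hcl in
theorem pow_mem_center (x y : U) (n : ℕ) : ⁅x, y⁆ ^ n ∈ center U := pow_mem (hcl x y) n

include hcl in
theorem comm_central_pow_left (x y z : U) (n : ℕ) : ⁅⁅x, y⁆ ^ n, z⁆ = 1 := by
  rw [commutatorElement_eq_one_iff_mul_comm]
  exact (mem_center_iff.mp (pow_mem_center hcl x y n) z).symm

include hcl in
theorem comm_central_pow_right (x y z : U) (n : ℕ) : ⁅z, ⁅x, y⁆ ^ n⁆ = 1 := by
  rw [commutatorElement_eq_one_iff_mul_comm]
  exact (mem_center_iff.mp (pow_mem_center hcl x y n) z)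

include hcl in
theorem bsum_assoc (x y z : U) : bsum p (bsum p x y) z = bsum p x (bsum p y z) := by
  unfold bsum
  obtain ⟨k, hk⟩ : ∃ k, k = (p + 1) / 2 := ⟨_, rfl⟩
  rw [← hk]
  rw [comm_mul_right' hcl, comm_mul_right' hcl, comm_mul_left' hcl, comm_mul_left' hcl,
    comm_central_pow_right hcl, comm_central_pow_left hcl, mul_one, mul_one]
  have hc : ∀ a b g : U, g * ⁅a, b⁆ ^ k = ⁅a, b⁆ ^ k * g := by
    intro a b g
    exact (mem_center_iff.mp (pow_mem_center hcl a b k) g)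
  have hcc : ∀ a b c d : U, Commute (⁅a, b⁆) (⁅c, d⁆) := by
    intro a b c d
    exact comm_central hcl c d _
  rw [(hcc z x z y).mul_pow, (hcc y x z x).mul_pow]
  calc x * y * ⁅y, x⁆ ^ k * z * (⁅z, x⁆ ^ k * ⁅z, y⁆ ^ k)
      = x * y * (⁅y, x⁆ ^ k * z) * (⁅z, x⁆ ^ k * ⁅z, y⁆ ^ k) := by group
    _ = x * y * (z * ⁅y, x⁆ ^ k) * (⁅z, x⁆ ^ k * ⁅z, y⁆ ^ k) := by rw [hc y x z]
    _ = x * (y * z) * ⁅y, x⁆ ^ k * ⁅z, x⁆ ^ k * ⁅z, y⁆ ^ k := by group
    _ = x * (y * z) * ⁅y, x⁆ ^ k * (⁅z, x⁆ ^ k * ⁅z, y⁆ ^ k) := by group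
    _ = x * (y * z) * ⁅y, x⁆ ^ k * (⁅z, y⁆ ^ k * ⁅z, x⁆ ^ k) := by
        rw [hc z y (⁅z, x⁆ ^ k)]
    _ = x * (y * z) * (⁅y, x⁆ ^ k * ⁅z, y⁆ ^ k) * ⁅z, x⁆ ^ k := by group
    _ = x * (y * z) * (⁅z, y⁆ ^ k * ⁅y, x⁆ ^ k) * ⁅z, x⁆ ^ k := by
        rw [hc z y (⁅y, x⁆ ^ k)]
    _ = x * (y * z * ⁅z, y⁆ ^ k) * (⁅y, x⁆ ^ k * ⁅z, x⁆ ^ k) := by group

/-- The abelian group structure. -/
@[reducible] noncomputable def lieGroup : AddCommGroup U :=
  letI : Add U := ⟨bsum p⟩
  letI : Zero U := ⟨1⟩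
  letI : Neg U := ⟨fun x => x⁻¹⟩
  { AddGroup.ofLeftAxioms (G := U) (fun a b c => bsum_assoc hcl a b c)
      (fun a => by
        show bsum p 1 a = a
        unfold bsum
        simp)
      (fun a => by
        show bsum p a⁻¹ a = 1
        unfold bsum
        have : ⁅a, a⁻¹⁆ = 1 := by
          rw [commutatorElement_eq_one_iff_mul_comm]
          simp
        rw [this]
        simp) with
    add_comm := fun a b => bsum_comm hcl hexp hp2 a b }

end Sum

section Main

variable {U : Type*} [Group U] [Finite U] {p : ℕ} [hp : Fact p.Prime]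

theorem exists_fixed_not_fixed (hp2 : p ≠ 2) (hcl : ∀ x y : U, ⁅x, y⁆ ∈ center U)
    (hexp : ∀ x : U, x ^ p = 1) (Q : Subgroup (MulAut U)) (hQ : ¬ p ∣ Nat.card Q)
    (θ : MulAut U) (hθ : θ ^ p = 1) (hθQ : ∀ q ∈ Q, θ * q * θ⁻¹ ∈ Q)
    (hne : ∃ q ∈ Q, ∃ u, q u ≠ u) : ∃ m, θ m = m ∧ ∃ q ∈ Q, q m ≠ m := by
  classical
  letI inst : AddCommGroup U := lieGroup hcl hexp hp2
  have hadd : ∀ x y : U, x + y = bsum p x y := fun x y => rfl
  have hzero : (0 : U) = 1 := rfl
  have hneg : ∀ x : U, -x = x⁻¹ := fun x => rfl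
  have hsmul : ∀ (n : ℕ) (x : U), n • x = x ^ n := by
    intro n x
    induction n with
    | zero => rw [zero_nsmul, pow_zero]; rfl
    | succ n ih =>
      rw [succ_nsmul, ih, hadd, pow_succ]
      unfold bsum
      have : ⁅x, x ^ n⁆ = 1 := comm_self_pow hcl x n
      rw [this, one_pow, mul_one]
  -- automorphisms are additive
  let S : MulAut U → (U →+ U) := fun f =>
    { toFun := f
      map_zero' := by rw [hzero, map_one]
      map_add' := fun x y => by
        rw [hadd, hadd]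
        unfold bsum
        rw [map_mul, map_mul, map_pow, map_commutatorElement] }
  have hS : ∀ f x, S f x = f x := fun f x => rfl
  haveI : Finite (MulAut U) :=
    Finite.of_injective (fun f => (f : U → U)) (fun a b h => by
      ext x; exact congrFun h x)
  haveI : Fintype Q := Fintype.ofFinite _
  have hcop : (Nat.card Q).Coprime p :=
    ((Nat.Prime.coprime_iff_not_dvd hp.out).mpr hQ).symm
  obtain ⟨n', -, hn'⟩ := Nat.exists_mul_mod_eq_one_of_coprime hcop hp.out.one_lt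
  -- the averaging map
  let P₀ : U →+ U := ∑ q : Q, S q
  have hP₀ : ∀ u, P₀ u = ∑ q : Q, (q : MulAut U) u := by
    intro u
    simp only [P₀, AddMonoidHom.finsetSum_apply]
    rfl
  let P : U →+ U := n' • P₀
  have hP : ∀ u, P u = n' • P₀ u := fun u => rfl
  -- invariance
  have hP₀Q : ∀ r ∈ Q, ∀ u, r (P₀ u) = P₀ u := by
    intro r hr u
    rw [hP₀, ← hS, map_sum]
    simp only [hS]
    have : ∀ q : Q, r ((q : MulAut U) u) = ((⟨r, hr⟩ * q : Q) : MulAut U) u := fun q => rfl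
    simp only [this]
    exact Fintype.sum_equiv (Equiv.mulLeft (⟨r, hr⟩ : Q)) _ _ (fun q => rfl)
  have hPQ : ∀ r ∈ Q, ∀ u, r (P u) = P u := by
    intro r hr u
    rw [hP, ← hS, map_nsmul, hS, hP₀Q r hr]
  -- fixed elements
  have hfixed : ∀ u, (∀ q ∈ Q, q u = u) → P u = u := by
    intro u hu
    rw [hP, hP₀]
    have h1 : ∑ q : Q, (q : MulAut U) u = ∑ _q : Q, u :=
      Finset.sum_congr rfl (fun q _ => hu q q.2)
    rw [h1, Finset.sum_const, Finset.card_univ, ← Nat.card_eq_fintype_card, hsmul, hsmul, ← pow_mul,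
      pow_eq_pow_mod _ (hexp u), hn', pow_one]
  -- equivariance
  have hθP₀ : ∀ u, θ (P₀ u) = P₀ (θ u) := by
    intro u
    rw [hP₀, hP₀, ← hS, map_sum]
    simp only [hS]
    let c : Q → Q := fun q => ⟨θ * q * θ⁻¹, hθQ q q.2⟩
    have hci : Function.Injective c := by
      intro a b hab
      have h1 : θ * (a : MulAut U) * θ⁻¹ = θ * b * θ⁻¹ := congrArg Subtype.val hab
      exact Subtype.ext (by simpa using h1)
    have hcb : Function.Bijective c := ⟨hci, Finite.surjective_of_injective hci⟩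
    refine Fintype.sum_equiv (Equiv.ofBijective c hcb) _ _ (fun q => ?_)
    show θ ((q : MulAut U) u) = (θ * q * θ⁻¹) (θ u)
    simp [MulAut.mul_apply]
  have hθP : ∀ u, θ (P u) = P (θ u) := by
    intro u
    rw [hP, hP, ← hS, map_nsmul, hS, hθP₀]
  -- the kernel
  have hPP : ∀ u, P (P u) = P u := fun u => hfixed _ (fun q hq => hPQ q hq u)
  let M : AddSubgroup U := P.ker
  have hMθ : ∀ m ∈ M, θ m ∈ M := by
    intro m hm
    have hm' : P m = 0 := hm
    show P (θ m) = 0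
    rw [← hθP, hm', hzero, map_one]
  -- a non-trivial element of the kernel
  obtain ⟨r, hr, u₀, hu₀⟩ := hne
  have hm₀ : u₀ - P u₀ ∈ M := by
    show P (u₀ - P u₀) = 0
    rw [map_sub, hPP, sub_self]
  have hm₀ne : u₀ - P u₀ ≠ 0 := by
    intro h
    have h1 : u₀ = P u₀ := sub_eq_zero.mp h
    apply hu₀
    rw [h1, hPQ r hr]
  -- the fixed point count
  let f : Function.End ↥M := fun m => ⟨θ m, hMθ m m.2⟩
  have hfpow : ∀ (k : ℕ) (m : M), (((f ^ k) m : M) : U) = (θ ^ k) (m : U) := by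
    intro k m
    induction k with
    | zero => rfl
    | succ k ih =>
      rw [pow_succ' θ, MulAut.mul_apply, ← ih, pow_succ' f]
      rfl
  have hf : f ^ p ^ 1 = 1 := by
    rw [pow_one]
    funext m
    apply Subtype.ext
    rw [hfpow, hθ]
    rfl
  haveI : Fintype ↥M := Fintype.ofFinite _
  have hcount := Equiv.Perm.card_fixedPoints_modEq hf
  -- `p` divides the order of `M`
  have hMp : IsPGroup p (Multiplicative ↥M) := by
    intro x
    refine ⟨1, ?_⟩
    rw [pow_one]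
    apply Multiplicative.toAdd.injective
    rw [toAdd_pow, toAdd_one]
    apply Subtype.ext
    show p • ((Multiplicative.toAdd x : M) : U) = 0
    rw [hsmul, hexp]
    rfl
  obtain ⟨k, hk⟩ := IsPGroup.iff_card.mp hMp
  have hk0 : k ≠ 0 := by
    rintro rfl
    rw [pow_zero] at hk
    have h1 : Subsingleton (Multiplicative ↥M) := (Nat.card_eq_one_iff_unique.mp hk).1
    have h2 : (Multiplicative.ofAdd (⟨u₀ - P u₀, hm₀⟩ : M)) = Multiplicative.ofAdd (0 : M) :=
      Subsingleton.elim _ _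
    have h3 : (⟨u₀ - P u₀, hm₀⟩ : M) = 0 := Multiplicative.ofAdd.injective h2
    exact hm₀ne (congrArg Subtype.val h3)
  have hdvd : p ∣ Fintype.card ↥M := by
    rw [← Nat.card_eq_fintype_card]
    have e : Nat.card ↥M = Nat.card (Multiplicative ↥M) := rfl
    rw [e, hk]
    exact dvd_pow_self p hk0
  have hfixdvd : p ∣ Fintype.card (Function.fixedPoints f) :=
    (Nat.modEq_zero_iff_dvd.mp (hcount.symm.trans (Nat.modEq_zero_iff_dvd.mpr hdvd)))
  have h0fix : (0 : M) ∈ Function.fixedPoints f := by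
    show f 0 = 0
    apply Subtype.ext
    show θ (0 : U) = 0
    rw [hzero, map_one]
  have hpos : 1 < Fintype.card (Function.fixedPoints f) := by
    have h1 : 0 < Fintype.card (Function.fixedPoints f) :=
      Fintype.card_pos_iff.mpr ⟨⟨0, h0fix⟩⟩
    have h2 := Nat.le_of_dvd h1 hfixdvd
    have h3 := hp.out.one_lt
    omega
  have hexm : ∃ a : Function.fixedPoints f, a ≠ ⟨0, h0fix⟩ := by
    obtain ⟨a, b, hab⟩ := Fintype.one_lt_card_iff.mp hpos
    by_cases ha : a = ⟨0, h0fix⟩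
    · exact ⟨b, fun hb => hab (ha.trans hb.symm)⟩
    · exact ⟨a, ha⟩
  obtain ⟨⟨m, hm⟩, hne'⟩ := hexm
  have hm0 : m ≠ 0 := fun h => hne' (Subtype.ext h)
  have hmfix : f m = m := hm
  have hθm : θ (m : U) = m := congrArg Subtype.val hmfix
  refine ⟨m, hθm, ?_⟩
  by_contra hcon
  push Not at hcon
  have h1 := hfixed m hcon
  have h2 : P (m : U) = 0 := m.2
  rw [h2] at h1
  exact hm0 (Subtype.ext h1.symm)

end Main

section Core

variable {G : Type*} [Group G] [Finite G] {p : ℕ} [hp : Fact p.Prime]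

theorem card_lt_of_lt'' {A B : Subgroup G} (h : A < B) : Nat.card A < Nat.card B := by
  have h1 : Nat.card A ≤ Nat.card B := Subgroup.card_le_of_le h.le
  refine lt_of_le_of_ne h1 ?_
  intro e
  exact h.ne (Subgroup.eq_of_le_of_card_ge h.le e.ge)

/-- Conjugation on a Frattini subgroup. -/
theorem frat_map_conj {U : Subgroup G} {g : G} (hg : g ∈ normalizer (U : Set G)) {y : U}
    (hy : y ∈ frattini U) : ∃ y' ∈ frattini U, (y' : G) = g * y * g⁻¹ := by
  refine ⟨U.normalizerMonoidHom ⟨g, hg⟩ y, ?_, rfl⟩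
  have h := (frattini_characteristic (G := U)).fixed (U.normalizerMonoidHom ⟨g, hg⟩)
  have h2 : y ∈ (frattini U).comap (U.normalizerMonoidHom ⟨g, hg⟩).toMonoidHom := by
    rw [h]
    exact hy
  exact h2

/-- The Frattini subgroup, in the ambient group. -/
def frat' (U : Subgroup G) : Subgroup G := (frattini U).map U.subtype

theorem frat'_le (U : Subgroup G) : frat' U ≤ U := map_subtype_le _

theorem mem_normalizer_frat' {U : Subgroup G} {g : G} (hg : g ∈ normalizer (U : Set G)) :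
    g ∈ normalizer (frat' U : Set G) := by
  apply Cfsg.Agent.Lib.CharTwoLocal.mem_normalizer_of_forall
  · rintro a ⟨y, hy, rfl⟩
    obtain ⟨y', hy', e⟩ := frat_map_conj hg hy
    exact ⟨y', hy', e⟩
  · rintro a ⟨y, hy, rfl⟩
    obtain ⟨y', hy', e⟩ := frat_map_conj (inv_mem hg) hy
    refine ⟨y', hy', ?_⟩
    simpa using e

theorem frat'_lt {U : Subgroup G} (hne : U ≠ ⊥) : frat' U < U := by
  refine lt_of_le_of_ne (frat'_le U) ?_
  intro e
  have h1 : frattini U = ⊤ := by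
    apply Subgroup.map_injective U.subtype_injective
    rw [show (frattini U).map U.subtype = frat' U from rfl, e, ← MonoidHom.range_eq_map,
      Subgroup.range_subtype]
  have h2 : (⊥ : Subgroup U) = ⊤ := by
    apply frattini_nongenerating
    rw [h1, bot_sup_eq]
  apply hne
  rw [eq_bot_iff]
  intro x hx
  have h3 : (⟨x, hx⟩ : U) ∈ (⊥ : Subgroup U) := by
    rw [h2]
    trivial
  have h4 : (⟨x, hx⟩ : U) = 1 := h3
  exact congrArg Subtype.val h4

theorem comm_eq_bot_aux (hp2 : p ≠ 2) (Q : Subgroup G) (hQ : ¬ p ∣ Nat.card Q) (b₀ : G)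
    (hb₀ : b₀ ^ p = 1) (hb₀Q : b₀ ∈ normalizer (Q : Set G)) (R : Subgroup G) (hR : IsPGroup p R)
    (hm : ∀ m ∈ R, m ^ p = 1 → m * b₀ = b₀ * m → ∀ q ∈ Q, q * m = m * q) :
    ∀ (n : ℕ) (U : Subgroup G), Nat.card U = n → U ≤ R → Q ≤ normalizer (U : Set G) →
      b₀ ∈ normalizer (U : Set G) → ⁅U, Q⁆ = ⊥ := by
  intro n
  induction n using Nat.strong_induction_on with
  | _ n ih =>
  intro U hUn hUR hQU hbU
  by_contra hne
  have hUp : IsPGroup p U := hR.to_le hUR
  have hcop : (Nat.card Q).Coprime (Nat.card U) := by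
    obtain ⟨k, hk⟩ := IsPGroup.iff_card.mp hUp
    rw [hk]
    exact Nat.Coprime.pow_right _ ((Nat.Prime.coprime_iff_not_dvd hp.out).mpr hQ).symm
  have hsolv : Group.IsSolvable U := by
    haveI := hUp.isNilpotent
    infer_instance
  have h1 := Cfsg.Agent.Lib.Glauberman.commutator_commutator_eq hQU hcop (Or.inr hsolv)
  have hle := Cfsg.Agent.Lib.Glauberman.commutator_le_of_le_normalizer hQU
  have hU1Q := Cfsg.Agent.Lib.Glauberman.le_normalizer_commutator hQU
  have hbU1 : b₀ ∈ normalizer ((⁅U, Q⁆ : Subgroup G) : Set G) := by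
    rw [mem_normalizer_iff_map_conj_eq, map_commutator,
      mem_normalizer_iff_map_conj_eq.mp hbU, mem_normalizer_iff_map_conj_eq.mp hb₀Q]
  have hUU1 : ⁅U, Q⁆ = U := by
    by_contra hne1
    have hlt : ⁅U, Q⁆ < U := lt_of_le_of_ne hle hne1
    have hc : Nat.card (⁅U, Q⁆ : Subgroup G) < n := by
      rw [← hUn]
      exact card_lt_of_lt'' hlt
    have h2 := ih _ hc _ rfl (hle.trans hUR) hU1Q hbU1
    rw [h1] at h2
    exact hne h2
  have hUne : U ≠ ⊥ := by
    rintro rfl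
    exact hne (commutator_bot_left _)
  have hDQ : ⁅frat' U, Q⁆ = ⊥ :=
    ih _ (by rw [← hUn]; exact card_lt_of_lt'' (frat'_lt hUne)) _ rfl ((frat'_le U).trans hUR)
      (fun q hq => mem_normalizer_frat' (hQU hq)) (mem_normalizer_frat' hbU)
  have hUDle : ⁅U, frat' U⁆ ≤ frat' U := by
    rw [commutator_comm]
    exact Cfsg.Agent.Lib.Glauberman.commutator_le_of_le_normalizer
      (fun u hu => mem_normalizer_frat' (le_normalizer hu))
  have hUD : ⁅U, frat' U⁆ = ⊥ := by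
    have h3 : ⁅⁅Q, U⁆, frat' U⁆ = ⊥ := by
      apply commutator_commutator_eq_bot_of_rotate
      · rw [eq_bot_iff, ← hDQ]
        exact commutator_mono hUDle le_rfl
      · rw [hDQ, commutator_bot_left]
    rwa [commutator_comm Q U, hUU1] at h3
  -- element forms
  have hUDc : ∀ u ∈ U, ∀ d ∈ frat' U, u * d = d * u := by
    intro u hu d hd
    have h2 : ⁅u, d⁆ ∈ (⊥ : Subgroup G) := by
      rw [← hUD]
      exact commutator_mem_commutator hu hd
    exact commutatorElement_eq_one_iff_mul_comm.mp h2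
  have hDQc : ∀ d ∈ frat' U, ∀ q ∈ Q, d * q = q * d := by
    intro d hd q hq
    have h2 : ⁅d, q⁆ ∈ (⊥ : Subgroup G) := by
      rw [← hDQ]
      exact commutator_mem_commutator hd hq
    exact commutatorElement_eq_one_iff_mul_comm.mp h2
  have hcomU : ∀ x y : U, ((⁅x, y⁆ : U) : G) ∈ frat' U := by
    intro x y
    refine ⟨⁅x, y⁆, Cfsg.Agent.Lib.Frat.commutator_le_frattini hUp ?_, rfl⟩
    exact commutator_mem_commutator (mem_top x) (mem_top y)
  have hpowU : ∀ x : U, ((x ^ p : U) : G) ∈ frat' U := by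
    intro x
    exact ⟨x ^ p, Cfsg.Agent.Lib.Frat.pow_mem_frattini hUp x, rfl⟩
  have hcl : ∀ x y : U, ⁅x, y⁆ ∈ center U := by
    intro x y
    rw [mem_center_iff]
    intro g
    apply Subtype.ext
    exact hUDc g g.2 _ (hcomU x y)
  have hpcen : ∀ x : U, x ^ p ∈ center U := by
    intro x
    rw [mem_center_iff]
    intro g
    apply Subtype.ext
    exact hUDc g g.2 _ (hpowU x)
  have hmulpow : ∀ a b : U, (a * b) ^ p = a ^ p * b ^ p := by
    intro a b
    have e : b * a = a * b * ⁅b⁻¹, a⁻¹⁆ := by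
      simp only [commutatorElement_def]
      group
    have hc : ∀ g : U, Commute ⁅b⁻¹, a⁻¹⁆ g := fun g =>
      (mem_center_iff.mp (hcl b⁻¹ a⁻¹) g).symm
    rw [Cfsg.Agent.Lib.CoprimeMin.mul_pow_of_central e (hc a) (hc b) p]
    have hcp : ⁅b⁻¹, a⁻¹⁆ ^ p = 1 := by
      rw [← Cfsg.Agent.Lib.Class2Det.comm_pow_left hcl]
      rw [commutatorElement_eq_one_iff_mul_comm]
      have := mem_center_iff.mp (hpcen b⁻¹) a⁻¹
      exact this.symm
    have hdvd : p ∣ p.choose 2 := by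
      apply hp.out.dvd_choose_self (by norm_num)
      have := hp.out.two_le
      omega
    obtain ⟨t, ht⟩ := hdvd
    rw [ht, pow_mul, hcp, one_pow, mul_one]
  let K : Subgroup U :=
    { carrier := {x | x ^ p = 1}
      mul_mem' := fun {a b} ha hb => by
        show (a * b) ^ p = 1
        rw [hmulpow, show a ^ p = 1 from ha, show b ^ p = 1 from hb, one_mul]
      one_mem' := one_pow p
      inv_mem' := fun {a} ha => by
        show a⁻¹ ^ p = 1
        rw [inv_pow, show a ^ p = 1 from ha, inv_one] }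
  have hUK : U ≤ K.map U.subtype := by
    calc U = ⁅U, Q⁆ := hUU1.symm
      _ ≤ _ := by
        rw [commutator_le]
        intro u hu q hq
        have hmem : ⁅u, q⁆ ∈ U := hle (commutator_mem_commutator hu hq)
        have hconj : q * u⁻¹ * q⁻¹ ∈ U := (hQU hq _).mp (inv_mem hu)
        refine ⟨⟨⁅u, q⁆, hmem⟩, ?_, rfl⟩
        show (⟨⁅u, q⁆, hmem⟩ : U) ^ p = 1
        have e : (⟨⁅u, q⁆, hmem⟩ : U) = ⟨u, hu⟩ * ⟨q * u⁻¹ * q⁻¹, hconj⟩ := by
          apply Subtype.ext
          show ⁅u, q⁆ = u * (q * u⁻¹ * q⁻¹)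
          simp only [commutatorElement_def]
          group
        rw [e, hmulpow]
        apply Subtype.ext
        show u ^ p * (q * u⁻¹ * q⁻¹) ^ p = 1
        have hd : u ^ p ∈ frat' U := hpowU ⟨u, hu⟩
        have hqc := hDQc _ hd q hq
        rw [conj_pow, inv_pow]
        have e2 : q * (u ^ p)⁻¹ * q⁻¹ = (q * u ^ p * q⁻¹)⁻¹ := by group
        rw [e2, ← hqc]
        simp
  have hexp : ∀ x : U, x ^ p = 1 := by
    intro x
    obtain ⟨y, hy, e⟩ := hUK x.2
    have : y = x := Subtype.ext e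
    rw [← this]
    exact hy
  -- the automorphism groups
  let φ : Q →* MulAut U := U.normalizerMonoidHom.comp (Subgroup.inclusion hQU)
  have hφ : ∀ (q : Q) (u : U), ((φ q u : U) : G) = q * u * (q : G)⁻¹ := fun q u => rfl
  let θ : MulAut U := U.normalizerMonoidHom ⟨b₀, hbU⟩
  have hθa : ∀ u : U, ((θ u : U) : G) = b₀ * u * b₀⁻¹ := fun u => rfl
  have hQ' : ¬ p ∣ Nat.card φ.range := fun h => hQ (h.trans (Subgroup.card_range_dvd φ))
  have hθ : θ ^ p = 1 := by
    show (U.normalizerMonoidHom ⟨b₀, hbU⟩) ^ p = 1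
    rw [← map_pow]
    have : (⟨b₀, hbU⟩ : normalizer (U : Set G)) ^ p = 1 := Subtype.ext hb₀
    rw [this, map_one]
  have hθQ : ∀ q ∈ φ.range, θ * q * θ⁻¹ ∈ φ.range := by
    rintro _ ⟨q, rfl⟩
    have hbq : b₀ * (q : G) * b₀⁻¹ ∈ Q := (hb₀Q _).mp q.2
    refine ⟨⟨_, hbq⟩, ?_⟩
    show U.normalizerMonoidHom _ = U.normalizerMonoidHom ⟨b₀, hbU⟩ *
      U.normalizerMonoidHom (Subgroup.inclusion hQU q) * (U.normalizerMonoidHom ⟨b₀, hbU⟩)⁻¹
    rw [← map_inv, ← map_mul, ← map_mul]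
    rfl
  have hne' : ∃ q ∈ φ.range, ∃ u, q u ≠ u := by
    by_contra hcon
    push Not at hcon
    apply hne
    rw [eq_bot_iff, commutator_le]
    intro u hu q hq
    have h2 := hcon (φ ⟨q, hq⟩) ⟨⟨q, hq⟩, rfl⟩ ⟨u, hu⟩
    have h3 : q * u * q⁻¹ = u := congrArg Subtype.val h2
    have h4 : ⁅u, q⁆ = u * (q * u * q⁻¹)⁻¹ := by
      simp only [commutatorElement_def]
      group
    rw [h4, h3, mul_inv_cancel]
    exact Subgroup.one_mem _
  obtain ⟨m, hθm, q, ⟨q₀, rfl⟩, hqm⟩ :=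
    exists_fixed_not_fixed hp2 hcl hexp φ.range hQ' θ hθ hθQ hne'
  apply hqm
  have e1 : b₀ * (m : G) * b₀⁻¹ = m := congrArg Subtype.val hθm
  have e2 : (m : G) * b₀ = b₀ * m := by
    rw [eq_mul_inv_iff_mul_eq.mp e1.symm |>.symm]
  have e3 : ((m : G)) ^ p = 1 := congrArg Subtype.val (hexp m)
  have e4 := hm m (hUR m.2) e3 e2 q₀ q₀.2
  apply Subtype.ext
  rw [hφ, e4]
  simp

/-- The coprime action: if `Q` is normalized by `b₀` of order `p`, and every element of order `p` of a `Q`- and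
`b₀`-invariant `p`-group `R` centralized by `b₀` is also centralized by `Q`, then `Q` centralizes `R`. -/
theorem comm_eq_bot (hp2 : p ≠ 2) (Q : Subgroup G) (hQ : ¬ p ∣ Nat.card Q) (b₀ : G)
    (hb₀ : b₀ ^ p = 1) (hb₀Q : b₀ ∈ normalizer (Q : Set G)) (R : Subgroup G) (hR : IsPGroup p R)
    (hm : ∀ m ∈ R, m ^ p = 1 → m * b₀ = b₀ * m → ∀ q ∈ Q, q * m = m * q)
    (hQR : Q ≤ normalizer (R : Set G)) (hbR : b₀ ∈ normalizer (R : Set G)) : ⁅R, Q⁆ = ⊥ :=
  comm_eq_bot_aux hp2 Q hQ b₀ hb₀ hb₀Q R hR hm _ R rfl le_rfl hQR hbR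

end Core

end Cfsg.Agent.Lib.FixedLie
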