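import Mathlib
import Cfsg.Agent.Lib.PCore

/-!
A non-central normal `q`-subgroup of minimal order in a finite solvable group all of whose
abelian normal subgroups are central.
-/

set_option autoImplicit false
set_option linter.unusedSectionVars false
set_option linter.unusedVariables false
set_option linter.style.haveILetI false

namespace Cfsg.Agent.Lib.FlavMTGrp

open Cfsg Cfsg.Agent.Lib.PCore
open scoped commutatorElement

universe u

variable {G : Type u} [Group G]

/-- The data of a minimal non-central normal `q`-subgroup. -/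
structure SecData (q : ℕ) (N : Subgroup G) : Prop where
  normal : N.Normal
  pgroup : IsPGroup q N
  nc : ¬ N ≤ Subgroup.center G
  min : ∀ M : Subgroup G, M.Normal → M ≤ N → M ≠ N → M ≤ Subgroup.center G
  comm_central : ∀ s ∈ N, ∀ t ∈ N, ⁅s, t⁆ ∈ Subgroup.center G
  pow_central : ∀ s ∈ N, s ^ q ∈ Subgroup.center G
  centr : ∀ s ∈ N, (∀ t ∈ N, s * t = t * s) → s ∈ Subgroup.center G
  noncomm : ∃ s ∈ N, ∃ t ∈ N, s * t ≠ t * s

theorem exists_secData [Finite G] [Group.IsSolvable G] (hnc : ∃ a b : G, a * b ≠ b * a)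
    (habel : ∀ A : Subgroup G, A.Normal → (∀ a ∈ A, ∀ b ∈ A, a * b = b * a) → A ≤ Subgroup.center G) :
    ∃ (q : ℕ) (_ : Fact q.Prime) (N : Subgroup G), SecData q N := by
  classical
  have hex : ∃ q : ℕ, ∃ _ : Fact q.Prime, ¬ pCore q G ≤ Subgroup.center G := by
    by_contra hcon
    push Not at hcon
    have hF : fittingSubgroup G ≤ Subgroup.center G := by
      rw [fittingSubgroup_eq_iSup_pCore]
      refine iSup_le fun q => ?_
      exact hcon q ⟨q.2⟩
    obtain ⟨a, b, hab⟩ := hnc
    have h1 : ∀ g : G, g ∈ fittingSubgroup G := by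
      intro g
      apply centralizer_fittingSubgroup_le
      rw [Subgroup.mem_centralizer_iff]
      intro f hf
      exact ((Subgroup.mem_center_iff.mp (hF hf)) g).symm
    exact hab ((Subgroup.mem_center_iff.mp (hF (h1 b))) a)
  obtain ⟨q, hq, hqc⟩ := hex
  let S : Set (Subgroup G) := {N | N.Normal ∧ N ≤ pCore q G ∧ ¬ N ≤ Subgroup.center G}
  have hSne : S.Nonempty := ⟨pCore q G, inferInstance, le_rfl, hqc⟩
  obtain ⟨N, hN⟩ := S.toFinite.exists_minimal hSne
  obtain ⟨⟨hNn, hNle, hNc⟩, hNmin⟩ := hN
  have hmin : ∀ M : Subgroup G, M.Normal → M ≤ N → M ≠ N → M ≤ Subgroup.center G := by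
    intro M hM hle hne
    by_contra hcon
    exact hne (le_antisymm hle (hNmin ⟨hM, hle.trans hNle, hcon⟩ hle))
  have hp : IsPGroup q N := (isPGroup_pCore q).to_le hNle
  have hnoncomm : ∃ s ∈ N, ∃ t ∈ N, s * t ≠ t * s := by
    by_contra hcon
    push Not at hcon
    exact hNc (habel N hNn hcon)
  have hcentr : ∀ s ∈ N, (∀ t ∈ N, s * t = t * s) → s ∈ Subgroup.center G := by
    intro s hs hst
    let Z : Subgroup G := N ⊓ Subgroup.centralizer (N : Set G)
    have hZn : Z.Normal := by
      have := hNn
      have : (Subgroup.centralizer (N : Set G)).Normal := Subgroup.normal_centralizer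
      exact Subgroup.normal_inf_normal _ _
    have hZne : Z ≠ N := by
      intro h
      obtain ⟨s', hs', t', ht', hne⟩ := hnoncomm
      apply hne
      have h1 : s' ∈ Z := by rw [h]; exact hs'
      exact (Subgroup.mem_centralizer_iff.mp h1.2 t' ht').symm
    refine hmin Z hZn inf_le_left hZne ⟨hs, Subgroup.mem_centralizer_iff.mpr ?_⟩
    intro t ht
    exact (hst t ht).symm
  have hcomm : ∀ s ∈ N, ∀ t ∈ N, ⁅s, t⁆ ∈ Subgroup.center G := by
    have hne : ⁅N, N⁆ ≠ N := by
      intro h
      have hnt : Nontrivial N := by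
        obtain ⟨s', hs', t', ht', hne⟩ := hnoncomm
        refine ⟨⟨⟨s', hs'⟩, 1, ?_⟩⟩
        intro h1
        have h2 : s' = 1 := congrArg Subtype.val h1
        apply hne
        rw [h2, one_mul, mul_one]
      have h1 := Group.IsSolvable.commutator_lt_top_of_nontrivial N
      have h2 : (commutator N).map N.subtype = ⁅N, N⁆ := Subgroup.map_subtype_commutator N
      apply ne_of_lt h1
      apply Subgroup.map_injective N.subtype_injective
      rw [h2, h, ← MonoidHom.range_eq_map, Subgroup.range_subtype]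
    have h1 := hmin ⁅N, N⁆ (by have := hNn; exact Subgroup.commutator_normal N N)
      (by have := hNn; exact Subgroup.commutator_le_left N N) hne
    intro s hs t ht
    exact h1 (Subgroup.commutator_mem_commutator hs ht)
  have hpow : ∀ s ∈ N, s ^ q ∈ Subgroup.center G := by
    let π : G →* G ⧸ Subgroup.center G := QuotientGroup.mk' _
    have hπ1 : ∀ t, π t = 1 ↔ t ∈ Subgroup.center G := fun t => QuotientGroup.eq_one_iff t
    have hπc : ∀ s ∈ N, ∀ t ∈ N, Commute (π s) (π t) := by
      intro s hs t ht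
      have h1 := (hπ1 _).mpr (hcomm s hs t ht)
      rw [commutatorElement_def] at h1
      simp only [map_mul, map_inv] at h1
      show π s * π t = π t * π s
      calc π s * π t = (π s * π t * (π s)⁻¹ * (π t)⁻¹) * (π t * π s) := by group
        _ = π t * π s := by rw [h1, one_mul]
    let M : Subgroup G :=
      { carrier := {s | s ∈ N ∧ π s ^ q = 1}
        mul_mem' := by
          rintro a b ⟨ha, ha'⟩ ⟨hb, hb'⟩
          refine ⟨N.mul_mem ha hb, ?_⟩
          rw [map_mul, (hπc a ha b hb).mul_pow, ha', hb', one_mul]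
        one_mem' := ⟨N.one_mem, by simp⟩
        inv_mem' := by
          rintro a ⟨ha, ha'⟩
          refine ⟨N.inv_mem ha, ?_⟩
          rw [map_inv, inv_pow, ha', inv_one] }
    have hMn : M.Normal := by
      refine ⟨fun a ha g => ⟨hNn.conj_mem a ha.1 g, ?_⟩⟩
      have h1 : π (g * a * g⁻¹) = π g * π a * (π g)⁻¹ := by simp
      rw [h1, conj_pow, ha.2]
      simp
    have hMle : M ≤ N := fun a ha => ha.1
    have hMne : ¬ M ≤ Subgroup.center G := by
      obtain ⟨s, hs, hsc⟩ := Set.not_subset.mp hNc
      obtain ⟨k, hk⟩ := hp ⟨s, hs⟩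
      have hk' : s ^ (q ^ k) = 1 := congrArg Subtype.val hk
      have hex : ∃ i, s ^ (q ^ i) ∈ Subgroup.center G := ⟨k, by rw [hk']; exact Subgroup.one_mem _⟩
      have hi0 : Nat.find hex ≠ 0 := by
        intro h0
        have h1 := Nat.find_spec hex
        rw [h0, pow_zero, pow_one] at h1
        exact hsc h1
      obtain ⟨i, hi⟩ := Nat.exists_eq_succ_of_ne_zero hi0
      have h2 : ¬ s ^ (q ^ i) ∈ Subgroup.center G := Nat.find_min hex (by omega)
      have h3 : (s ^ (q ^ i)) ^ q ∈ Subgroup.center G := by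
        have h1 := Nat.find_spec hex
        rw [hi, Nat.succ_eq_add_one, pow_succ, pow_mul] at h1
        exact h1
      intro hle
      apply h2
      apply hle
      refine ⟨N.pow_mem hs _, ?_⟩
      rw [← map_pow]
      exact (hπ1 _).mpr h3
    have hMN : M = N := by
      by_contra hcon
      exact hMne (hmin M hMn hMle hcon)
    intro s hs
    have h1 : s ∈ M := by rw [hMN]; exact hs
    have h2 := h1.2
    rw [← map_pow] at h2
    exact (hπ1 _).mp h2
  exact ⟨q, hq, N, hNn, hp, hNc, hmin, hcomm, hpow, hcentr, hnoncomm⟩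

end Cfsg.Agent.Lib.FlavMTGrp
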