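import Mathlib
import Cfsg.Agent.Lib.HHCore

/-!
Two estimates on the centralizer of an operator in the full endomorphism algebra.
-/

set_option autoImplicit false
set_option linter.unusedSectionVars false
set_option linter.unusedVariables false

namespace Cfsg.Agent.Lib.FlavMTLin

open Module Cfsg.Agent.Lib.HHCore

universe u

variable {K : Type*} [Field K] {V : Type*} [AddCommGroup V] [Module K V] [FiniteDimensional K V]

/-- The centralizer of an operator, as a subspace. -/
def cen (f : End K V) : Submodule K (End K V) where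
  carrier := {A | f * A = A * f}
  add_mem' := by
    intro a b ha hb
    simp only [Set.mem_ofPred_eq] at ha hb ⊢
    rw [mul_add, add_mul, ha, hb]
  zero_mem' := by simp
  smul_mem' := by
    intro c a ha
    simp only [Set.mem_ofPred_eq] at ha ⊢
    rw [mul_smul_comm, smul_mul_assoc, ha]

theorem mem_cen {f A : End K V} : A ∈ cen f ↔ f * A = A * f := Iff.rfl

/-- The lower bound for the centralizer. -/
theorem sq_add_one_le (f : End K V) (hf : f ≠ 1) :
    (finrank K (LinearMap.ker (f - 1))) ^ 2 + 1 ≤ finrank K (cen f) := by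
  set U := LinearMap.ker (f - 1) with hU
  set R := LinearMap.range (f - 1) with hR
  let Q := V ⧸ R
  have hQ : finrank K Q = finrank K U := by
    have h1 := Submodule.finrank_quotient_add_finrank R
    have h2 := LinearMap.finrank_range_add_finrank_ker (f - 1)
    have h3 : finrank K Q + finrank K R = finrank K R + finrank K U := by
      rw [h1, h2]
    omega
  let Φ₀ : ((Q →ₗ[K] U) × K) →ₗ[K] End K V :=
    { toFun := fun y => (U.subtype ∘ₗ y.1 ∘ₗ R.mkQ) + y.2 • (1 : End K V)
      map_add' := by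
        intro y y'
        ext v
        simp [add_smul]
        abel
      map_smul' := by
        intro c y
        ext v
        simp [smul_add, smul_smul] }
  have hΦ₀ : ∀ y, Φ₀ y ∈ cen f := by
    rintro ⟨φ, a⟩
    rw [mem_cen]
    ext v
    show f ((U.subtype ∘ₗ φ ∘ₗ R.mkQ) v + a • v) = (U.subtype ∘ₗ φ ∘ₗ R.mkQ) (f v) + a • f v
    have h1 : ∀ u : U, f (u : V) = u := by
      intro u
      have h := LinearMap.mem_ker.mp u.2
      rw [LinearMap.sub_apply, Module.End.one_apply, sub_eq_zero] at h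
      exact h
    have h2 : R.mkQ (f v) = R.mkQ v := by
      rw [Submodule.mkQ_apply, Submodule.mkQ_apply, Submodule.Quotient.eq]
      exact ⟨v, rfl⟩
    simp only [LinearMap.comp_apply, map_add, map_smul, h2, Submodule.subtype_apply, h1]
  let Φ : ((Q →ₗ[K] U) × K) →ₗ[K] cen f := Φ₀.codRestrict _ hΦ₀
  have hΦ : Function.Injective Φ := by
    rw [injective_iff_map_eq_zero]
    rintro ⟨φ, a⟩ h
    have h0 : (U.subtype ∘ₗ φ ∘ₗ R.mkQ) + a • (1 : End K V) = 0 := congrArg Subtype.val h
    have ha : a = 0 := by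
      by_contra ha
      apply hf
      ext v
      have h1 := congrArg (fun z : End K V => z v) h0
      have h2 : a • v = - (φ (R.mkQ v) : V) := by
        have h3 : (φ (R.mkQ v) : V) + a • v = 0 := h1
        exact eq_neg_of_add_eq_zero_right h3
      have h3 : v = a⁻¹ • (- (φ (R.mkQ v) : V)) := by
        rw [← h2, smul_smul, inv_mul_cancel₀ ha, one_smul]
      have h4 : v ∈ U := by
        rw [h3]
        exact U.smul_mem _ (U.neg_mem (φ (R.mkQ v)).2)
      have h5 := LinearMap.mem_ker.mp h4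
      rw [LinearMap.sub_apply, Module.End.one_apply, sub_eq_zero] at h5
      simpa using h5
    subst ha
    have hφ : φ = 0 := by
      refine LinearMap.ext fun q => Subtype.ext ?_
      obtain ⟨v, rfl⟩ := R.mkQ_surjective q
      have h1 := congrArg (fun z : End K V => z v) h0
      have h2 : (φ (R.mkQ v) : V) + (0 : K) • v = 0 := h1
      rw [zero_smul, add_zero] at h2
      exact h2
    subst hφ
    rfl
  have h1 := LinearMap.finrank_le_finrank_of_injective hΦ
  rw [Module.finrank_prod, Module.finrank_linearMap, hQ, Module.finrank_self] at h1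
  rw [sq]
  exact h1

section Rep

variable {R : Type*} [Group R] [Fintype R] [Nontrivial V]

namespace HHRepX

variable (X : HHRep K V R)

/-- The weight space of the conjugation action attached to `t₀`. -/
def wtE (t₀ : R) : Submodule K (End K V) where
  carrier := {A | ∀ s, X.ρ s * A * X.ρ s⁻¹ = X.ω s t₀ • A}
  add_mem' := by
    intro a b ha hb s
    rw [mul_add, add_mul, ha s, hb s, smul_add]
  zero_mem' := by intro s; simp
  smul_mem' := by
    intro c a ha s
    rw [mul_smul_comm, smul_mul_assoc, ha s, smul_comm]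

theorem mem_wtE {t₀ : R} {A : End K V} : A ∈ wtE X t₀ ↔ ∀ s, X.ρ s * A * X.ρ s⁻¹ = X.ω s t₀ • A :=
  Iff.rfl

theorem prL_mem (t₀ : R) (A : End K V) : X.prL t₀ A ∈ wtE X t₀ := by
  intro s₁
  rw [CommRep.prL_apply, mul_smul_comm, smul_mul_assoc, smul_comm]
  congr 1
  rw [Finset.mul_sum, Finset.sum_mul, Finset.smul_sum]
  rw [← Equiv.sum_comp (Equiv.mulLeft s₁) (fun s => X.ω s₁ t₀ • (X.ω s t₀)⁻¹ • (X.ρ s * A * X.ρ s⁻¹))]
  refine Finset.sum_congr rfl fun s _ => ?_
  simp only [Equiv.coe_mulLeft]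
  rw [X.omega_mul_left, mul_inv, smul_smul, mul_smul_comm, smul_mul_assoc]
  have h1 : X.ω s₁ t₀ * ((X.ω s₁ t₀)⁻¹ * (X.ω s t₀)⁻¹) = (X.ω s t₀)⁻¹ := by
    rw [← mul_assoc, mul_inv_cancel₀ (X.omega_ne_zero s₁ t₀), one_mul]
  rw [h1]
  congr 1
  rw [mul_inv_rev, map_mul, map_mul]
  simp only [mul_assoc]

/-- The weight space of the trivial character is the commutant. -/
def com : Submodule K (End K V) where
  carrier := {A | ∀ s, X.ρ s * A = A * X.ρ s}
  add_mem' := by
    intro a b ha hb s
    rw [mul_add, add_mul, ha s, hb s]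
  zero_mem' := by intro s; simp
  smul_mem' := by
    intro c a ha s
    rw [mul_smul_comm, smul_mul_assoc, ha s]

theorem mul_mem_wtE (t₀ : R) {A : End K V} (hA : A ∈ com X) : X.ρ t₀ * A ∈ wtE X t₀ := by
  intro s
  have h1 : X.ρ s * (X.ρ t₀ * A) * X.ρ s⁻¹ = (X.ρ s * X.ρ t₀ * X.ρ s⁻¹) * (X.ρ s * A * X.ρ s⁻¹) := by
    have h2 : X.ρ s⁻¹ * X.ρ s = 1 := X.rho_inv_mul s
    calc X.ρ s * (X.ρ t₀ * A) * X.ρ s⁻¹ = X.ρ s * X.ρ t₀ * (1 : End K V) * A * X.ρ s⁻¹ := by
          simp only [mul_one, mul_assoc]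
      _ = X.ρ s * X.ρ t₀ * (X.ρ s⁻¹ * X.ρ s) * A * X.ρ s⁻¹ := by rw [h2]
      _ = _ := by simp only [mul_assoc]
  have h3 : X.ρ s * A * X.ρ s⁻¹ = A := by
    rw [hA s, mul_assoc, X.rho_mul_inv, mul_one]
  rw [h1, h3, X.conj_rho, smul_mul_assoc]

theorem finrank_wtE (t₀ : R) : finrank K (wtE X t₀) = finrank K (com X) := by
  have hle : ∀ A ∈ com X, X.ρ t₀ * A ∈ wtE X t₀ := fun A hA => mul_mem_wtE X t₀ hA
  have hge : ∀ A ∈ wtE X t₀, X.ρ t₀⁻¹ * A ∈ com X := by
    intro A hA s
    have h1 := hA s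
    have h2 : X.ρ s * A = X.ω s t₀ • (A * X.ρ s) := by
      have h3 : X.ρ s * A = X.ρ s * A * X.ρ s⁻¹ * X.ρ s := by
        rw [mul_assoc (X.ρ s * A), X.rho_inv_mul, mul_one]
      rw [h3, h1, smul_mul_assoc]
    have h4 := X.hω s t₀⁻¹
    rw [X.omega_inv_right] at h4
    rw [← mul_assoc, h4, smul_mul_assoc, mul_assoc, h2, mul_smul_comm, smul_smul,
      inv_mul_cancel₀ (X.omega_ne_zero s t₀), one_smul, mul_assoc]
  let f : com X →ₗ[K] wtE X t₀ :=
    { toFun := fun A => ⟨X.ρ t₀ * A, hle _ A.2⟩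
      map_add' := by intro A B; ext1; simp [mul_add]
      map_smul' := by intro c A; ext1; simp }
  let g : wtE X t₀ →ₗ[K] com X :=
    { toFun := fun A => ⟨X.ρ t₀⁻¹ * A, hge _ A.2⟩
      map_add' := by intro A B; ext1; simp [mul_add]
      map_smul' := by intro c A; ext1; simp }
  have e : com X ≃ₗ[K] wtE X t₀ :=
    LinearEquiv.ofLinearMap f g
      (by
        ext1 A
        apply Subtype.ext
        show X.ρ t₀ * (X.ρ t₀⁻¹ * A) = A
        rw [← mul_assoc, X.rho_mul_inv, one_mul])
      (by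
        ext1 A
        apply Subtype.ext
        show X.ρ t₀⁻¹ * (X.ρ t₀ * A) = A
        rw [← mul_assoc, X.rho_inv_mul, one_mul])
  exact e.finrank_eq.symm

/-- Applying a projection to an element of a weight space. -/
theorem prL_wtE (hR : (Fintype.card R : K) ≠ 0) (t₀ t : R) [Decidable (t₀⁻¹ * t ∈ X.radical)]
    {A : End K V} (hA : A ∈ wtE X t) :
    X.prL t₀ A = if t₀⁻¹ * t ∈ X.radical then A else 0 := by
  have h0 : ∀ s, (X.ω s t₀)⁻¹ • (X.ρ s * A * X.ρ s⁻¹) = X.ω s (t₀⁻¹ * t) • A := by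
    intro s
    rw [hA s, smul_smul, X.omega_mul_right, X.omega_inv_right]
  rw [CommRep.prL_apply]
  simp only [h0, ← Finset.sum_smul]
  split_ifs with h
  · have : ∀ s, X.ω s (t₀⁻¹ * t) = 1 := fun s => X.omega_radical_right s h
    simp only [this, Finset.sum_const, Finset.card_univ, nsmul_eq_mul, mul_one]
    rw [smul_smul, inv_mul_cancel₀ hR, one_smul]
  · rw [X.sum_char h, zero_smul, smul_zero]

/-- The decomposition of the endomorphism algebra. -/
theorem sum_prL (hR : (Fintype.card R : K) ≠ 0) (A : End K V) :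
    ∑ r, X.prL r A = (Nat.card X.radical : K) • A := by
  classical
  simp only [CommRep.prL_apply]
  rw [← Finset.smul_sum, Finset.sum_comm]
  have h1 : ∀ s : R, ∑ r, (X.ω s r)⁻¹ • (X.ρ s * A * X.ρ s⁻¹) =
      if s ∈ X.radical then (Fintype.card R : K) • A else 0 := by
    intro s
    rw [← Finset.sum_smul]
    have h2 : ∀ r, (X.ω s r)⁻¹ = X.ω r s := fun r => by
      rw [X.omega_swap r s, inv_inv]
    simp only [h2]
    split_ifs with h
    · have h3 : ∀ r, X.ω r s = 1 := fun r => X.omega_radical_right r h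
      simp only [h3, Finset.sum_const, Finset.card_univ, nsmul_eq_mul, mul_one]
      congr 1
      obtain ⟨c, hc⟩ := X.hscal s (fun t => h t)
      have h4 : X.ρ s * A = A * X.ρ s := by
        rw [hc, smul_mul_assoc, one_mul, mul_smul_comm, mul_one]
      rw [h4, mul_assoc, X.rho_mul_inv, mul_one]
    · rw [X.sum_char h, zero_smul]
  simp only [h1]
  rw [Finset.sum_ite, Finset.sum_const_zero, add_zero, Finset.sum_const, ← Nat.cast_smul_eq_nsmul K,
    smul_smul, smul_smul]
  have h5 : ∀ c : K, (Fintype.card R : K)⁻¹ * (c * (Fintype.card R : K)) = c := by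
    intro c
    rw [mul_comm c, ← mul_assoc, inv_mul_cancel₀ hR, one_mul]
  rw [mul_assoc, h5]
  congr 2
  rw [Nat.card_eq_fintype_card, Fintype.card_subtype]

theorem eq_zero_of_prL (hR : (Fintype.card R : K) ≠ 0) (A : End K V)
    (h : ∀ r, X.prL r A = 0) : A = 0 := by
  have h1 := sum_prL X hR A
  simp only [h, Finset.sum_const_zero] at h1
  have h2 : (Nat.card X.radical : K) ≠ 0 := by
    intro h3
    apply hR
    have h4 : Nat.card X.radical ∣ Fintype.card R := by
      rw [← Nat.card_eq_fintype_card]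
      exact Subgroup.card_subgroup_dvd_card _
    obtain ⟨k, hk⟩ := h4
    rw [hk, Nat.cast_mul, h3, zero_mul]
  exact (smul_eq_zero.mp h1.symm).resolve_left h2

/-- The dimension count. -/
theorem index_mul_com_le (hR : (Fintype.card R : K) ≠ 0) :
    X.radical.index * finrank K (com X) ≤ (finrank K V) ^ 2 := by
  classical
  let Ψ : (X.T → com X) →ₗ[K] End K V :=
    { toFun := fun y => ∑ t : X.T, X.ρ (Quotient.out t) * (y t : End K V)
      map_add' := by
        intro y y'
        simp [mul_add, Finset.sum_add_distrib]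
      map_smul' := by
        intro c y
        simp [Finset.smul_sum] }
  have hΨ : Function.Injective Ψ := by
    rw [injective_iff_map_eq_zero]
    intro y hy
    funext t₀
    apply Subtype.ext
    have h1 : X.prL (Quotient.out t₀) (∑ t : X.T, X.ρ (Quotient.out t) * (y t : End K V)) = 0 := by
      have h2 : (∑ t : X.T, X.ρ (Quotient.out t) * (y t : End K V)) = 0 := hy
      rw [h2, map_zero]
    rw [map_sum, Finset.sum_eq_single t₀] at h1
    · rw [prL_wtE X hR _ _ (mul_mem_wtE X _ (y t₀).2), if_pos (by simp)] at h1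
      have h2 : X.ρ (Quotient.out t₀)⁻¹ * (X.ρ (Quotient.out t₀) * (y t₀ : End K V)) = 0 := by
        rw [h1, mul_zero]
      rw [← mul_assoc, X.rho_inv_mul, one_mul] at h2
      exact h2
    · intro t _ ht
      rw [prL_wtE X hR _ _ (mul_mem_wtE X _ (y t).2), if_neg]
      intro h
      apply ht
      have h3 : ((Quotient.out t₀ : R) : X.T) = ((Quotient.out t : R) : X.T) := by
        rw [QuotientGroup.eq]
        exact h
      rw [X.mk_out, X.mk_out] at h3
      exact h3.symm
    · simp
  have h1 := LinearMap.finrank_le_finrank_of_injective hΨ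
  rw [Module.finrank_pi_fintype, Module.finrank_linearMap] at h1
  simp only [Finset.sum_const, Finset.card_univ, smul_eq_mul] at h1
  rw [sq]
  have h2 : Fintype.card X.T = X.radical.index := by
    rw [Subgroup.index, Nat.card_eq_fintype_card]
  rwa [h2] at h1

/-- The upper bound for the centralizer. -/
theorem finrank_cen_le (hR : (Fintype.card R : K) ≠ 0) (g h : End K V) (γ : MulAut R)
    (hg : ∀ s, g * X.ρ s = X.ρ (γ s) * g) (hgh : g * h = 1) (hhg : h * g = 1)
    (Ξ : Finset R) (hΞ : ∀ s : R, ∃ ξ ∈ Ξ, ∃ j : ℕ, ((γ ^ j) ξ)⁻¹ * s ∈ X.radical) :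
    finrank K (cen g) ≤ Ξ.card * finrank K (com X) := by
  classical
  let Θ : cen g →ₗ[K] (∀ ξ : Ξ, wtE X (ξ : R)) :=
    { toFun := fun A ξ => ⟨X.prL (ξ : R) A, prL_mem X _ _⟩
      map_add' := by
        intro A B
        funext ξ
        apply Subtype.ext
        simp
      map_smul' := by
        intro c A
        funext ξ
        apply Subtype.ext
        simp }
  have hΘ : Function.Injective Θ := by
    rw [injective_iff_map_eq_zero]
    intro A hA
    have hAg : g * (A : End K V) * h = A := by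
      have h1 : g * (A : End K V) = A * g := A.2
      rw [h1, mul_assoc, hgh, mul_one]
    have hξ : ∀ ξ ∈ Ξ, X.prL ξ (A : End K V) = 0 := by
      intro ξ hξ
      exact congrArg Subtype.val (congrFun hA ⟨ξ, hξ⟩)
    have hj : ∀ (j : ℕ), ∀ ξ ∈ Ξ, X.prL ((γ ^ j) ξ) (A : End K V) = 0 := by
      intro j
      induction j with
      | zero => intro ξ h'; simpa using hξ ξ h'
      | succ j ih =>
        intro ξ h'
        have h1 : (γ ^ (j + 1)) ξ = γ ((γ ^ j) ξ) := by rw [pow_succ']; rfl
        rw [h1, ← hAg, ← X.prL_conj g h γ hg hgh hhg, ih ξ h']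
        simp
    apply Subtype.ext
    apply eq_zero_of_prL X hR
    intro r
    obtain ⟨ξ, hξ', j, hj'⟩ := hΞ r
    rw [← X.prL_congr hj', hj j ξ hξ']
  have h1 := LinearMap.finrank_le_finrank_of_injective hΘ
  rw [Module.finrank_pi_fintype] at h1
  simp only [finrank_wtE, Finset.sum_const, Finset.card_univ, smul_eq_mul, Fintype.card_coe] at h1
  exact h1

/-- The estimate for operators normalizing a representation with scalar commutators. -/
theorem two_mul_lt (hR : (Fintype.card R : K) ≠ 0) (g h : End K V) (γ : MulAut R)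
    (hg : ∀ s, g * X.ρ s = X.ρ (γ s) * g) (hgh : g * h = 1) (hhg : h * g = 1) (hg1 : g ≠ 1)
    (Ξ : Finset R) (hΞ : ∀ s : R, ∃ ξ ∈ Ξ, ∃ j : ℕ, ((γ ^ j) ξ)⁻¹ * s ∈ X.radical)
    (h4 : 4 * Ξ.card ≤ X.radical.index) :
    2 * finrank K (LinearMap.ker (g - 1)) < finrank K V := by
  have h1 := sq_add_one_le g hg1
  have h2 := finrank_cen_le X hR g h γ hg hgh hhg Ξ hΞ
  have h3 := index_mul_com_le X hR
  set c := finrank K (LinearMap.ker (g - 1))
  set n := finrank K V
  set D := finrank K (com X)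
  by_contra hcon
  push Not at hcon
  have h5 : 4 * (c ^ 2 + 1) ≤ n ^ 2 := by
    calc 4 * (c ^ 2 + 1) ≤ 4 * (Ξ.card * D) := Nat.mul_le_mul_left _ (h1.trans h2)
      _ = (4 * Ξ.card) * D := by ring
      _ ≤ X.radical.index * D := Nat.mul_le_mul_right _ h4
      _ ≤ n ^ 2 := h3
  nlinarith

end HHRepX

end Rep

end Cfsg.Agent.Lib.FlavMTLin
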