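import Mathlib

/-!
A transitive action of a finite solvable group generated by the conjugates of an element `x` of odd
prime order: at most a third of the points is fixed by `x`.
-/

set_option autoImplicit false

namespace Cfsg.Agent.Lib.FlavMTPerm

universe u v

variable {G : Type u} [Group G]

/-- A relation forcing an element to be trivial. -/
theorem eq_one_of_relations {Γ : Type*} [Group Γ] {p : ℕ} (hp2 : Odd p) {x a c : Γ} (hx : x ^ p = 1)
    (h1 : x * a * x⁻¹ = a * c) (h2 : x * c * x⁻¹ = c) (h3 : c ^ 2 = 1) : c = 1 := by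
  have hk : ∀ k : ℕ, x ^ k * a * (x ^ k)⁻¹ = a * c ^ k := by
    intro k
    induction k with
    | zero => simp
    | succ k ih =>
      have h4 : x ^ (k + 1) * a * (x ^ (k + 1))⁻¹ = x * (x ^ k * a * (x ^ k)⁻¹) * x⁻¹ := by
        rw [pow_succ']; group
      rw [h4, ih]
      have h5 : x * (a * c ^ k) * x⁻¹ = (x * a * x⁻¹) * (x * c ^ k * x⁻¹) := by group
      have h6 : x * c ^ k * x⁻¹ = c ^ k := by
        have : x * c * x⁻¹ = c → ∀ k : ℕ, x * c ^ k * x⁻¹ = c ^ k := by
          intro h k
          induction k with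
          | zero => simp
          | succ k ih =>
            have h7 : x * c ^ (k + 1) * x⁻¹ = (x * c ^ k * x⁻¹) * (x * c * x⁻¹) := by
              rw [pow_succ]; group
            rw [h7, ih, h, pow_succ]
        exact this h2 k
      rw [h5, h6, h1, pow_succ']
      group
  have h4 := hk p
  rw [hx] at h4
  have h5 : c ^ p = 1 := by
    have : a * c ^ p = a := by rw [← h4]; simp
    simpa using this
  obtain ⟨m, hm⟩ := hp2
  rw [hm, pow_succ, pow_mul, h3, one_pow, one_mul] at h5
  exact h5

/-- The core case: `x ∈ H`, with a normal subgroup `A` abelian modulo `H`, `A H = G`. -/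
theorem three_le_core [Finite G] {p : ℕ} (hp2 : Odd p) (x : G) (hx : x ^ p = 1)
    (hgen : Subgroup.normalClosure {x} = ⊤) (H : Subgroup G) (hH : H ≠ ⊤) (hxH : x ∈ H)
    (A : Subgroup G) (hAn : A.Normal) (hcomm : ∀ a ∈ A, ∀ b ∈ A, a * b * a⁻¹ * b⁻¹ ∈ H)
    (hsup : A ⊔ H = ⊤) :
    3 * Nat.card {c : G ⧸ H // x • c = c} ≤ H.index := by
  classical
  -- the intersection is normal
  let B : Subgroup G := A ⊓ H
  have hBA : ∀ a ∈ A, ∀ b ∈ B, a * b * a⁻¹ ∈ B := by
    intro a ha b hb
    refine ⟨hAn.conj_mem _ hb.1 _, ?_⟩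
    have h1 : a * b * a⁻¹ * b⁻¹ ∈ H := hcomm a ha b hb.1
    have h2 : a * b * a⁻¹ = (a * b * a⁻¹ * b⁻¹) * b := by group
    rw [h2]
    exact H.mul_mem h1 hb.2
  have hBH : ∀ h ∈ H, ∀ b ∈ B, h * b * h⁻¹ ∈ B := by
    intro h hh b hb
    exact ⟨hAn.conj_mem _ hb.1 _, H.mul_mem (H.mul_mem hh hb.2) (H.inv_mem hh)⟩
  have hBn : B.Normal := by
    have hle : (⊤ : Subgroup G) ≤ Subgroup.normalizer (B : Set G) := by
      rw [← hsup]
      refine sup_le ?_ ?_
      · intro a ha
        refine Subgroup.mem_normalizer_iff.mpr fun b => ⟨fun hb => hBA a ha b hb, fun hb => ?_⟩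
        have h1 := hBA a⁻¹ (A.inv_mem ha) _ hb
        simpa [mul_assoc] using h1
      · intro a ha
        refine Subgroup.mem_normalizer_iff.mpr fun b => ⟨fun hb => hBH a ha b hb, fun hb => ?_⟩
        have h1 := hBH a⁻¹ (H.inv_mem ha) _ hb
        simpa [mul_assoc] using h1
    exact Subgroup.normalizer_eq_top_iff.mp (top_le_iff.mp hle)
  let π : G →* G ⧸ B := QuotientGroup.mk' B
  have hπ1 : ∀ t, π t = 1 ↔ t ∈ B := fun t => QuotientGroup.eq_one_iff t
  -- the elements of the image of `A` commute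
  have hπc : ∀ a ∈ A, ∀ b ∈ A, π a * π b = π b * π a := by
    intro a ha b hb
    have h1 : a * b * a⁻¹ * b⁻¹ ∈ B := by
      refine ⟨?_, hcomm a ha b hb⟩
      exact A.mul_mem (A.mul_mem (A.mul_mem ha hb) (A.inv_mem ha)) (A.inv_mem hb)
    have h2 := (hπ1 _).mpr h1
    simp only [map_mul, map_inv] at h2
    have h3 : π a * π b * (π a)⁻¹ * (π b)⁻¹ = 1 := h2
    calc π a * π b = (π a * π b * (π a)⁻¹ * (π b)⁻¹) * (π b * π a) := by group
      _ = π b * π a := by rw [h3, one_mul]
  -- `C` : the part of `A` fixed modulo `B`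
  let C : Subgroup G := A ⊓ (Subgroup.centralizer {π x}).comap π
  have hmemC : ∀ a, a ∈ C ↔ a ∈ A ∧ π x * π a * (π x)⁻¹ = π a := by
    intro a
    constructor
    · rintro ⟨h1, h2⟩
      refine ⟨h1, ?_⟩
      have h3 : π x * π a = π a * π x := ((Subgroup.mem_centralizer_singleton_iff).mp h2).symm
      rw [h3]; group
    · rintro ⟨h1, h2⟩
      refine ⟨h1, ?_⟩
      refine (Subgroup.mem_centralizer_singleton_iff).mpr ?_
      calc π a * π x = (π x * π a * (π x)⁻¹) * π x := by rw [h2]
        _ = π x * π a := by group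
  have hCfix : ∀ a ∈ A, a ∈ C ↔ a⁻¹ * x * a ∈ H := by
    intro a ha
    rw [hmemC]
    constructor
    · rintro ⟨-, h2⟩
      have h3 : a⁻¹ * (x * a * x⁻¹) ∈ B := by
        rw [← hπ1]
        simp only [map_mul, map_inv]
        rw [h2]; group
      have h4 : a⁻¹ * x * a = a⁻¹ * (x * a * x⁻¹) * x := by group
      rw [h4]
      exact H.mul_mem h3.2 hxH
    · intro h
      refine ⟨ha, ?_⟩
      have h3 : a⁻¹ * (x * a * x⁻¹) ∈ B := by
        refine ⟨A.mul_mem (A.inv_mem ha) ?_, ?_⟩
        · have := hAn.conj_mem a ha x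
          exact this
        · have h4 : a⁻¹ * (x * a * x⁻¹) = (a⁻¹ * x * a) * x⁻¹ := by group
          rw [h4]
          exact H.mul_mem h (H.inv_mem hxH)
      have h4 := (hπ1 _).mpr h3
      simp only [map_mul, map_inv] at h4
      have h5 : π x * π a * (π x)⁻¹ = π a * ((π a)⁻¹ * (π x * π a * (π x)⁻¹)) := by group
      rw [h5, h4, mul_one]
  -- cosets have representatives in `A`
  have hrep : ∀ c : G ⧸ H, ∃ a ∈ A, (a : G ⧸ H) = c := by
    intro c
    induction c using QuotientGroup.induction_on with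
    | H g =>
      have hg : g ∈ ((A ⊔ H : Subgroup G) : Set G) := by rw [hsup]; trivial
      rw [Subgroup.normal_mul] at hg
      obtain ⟨a, ha, h, hh, rfl⟩ := Set.mem_mul.mp hg
      refine ⟨a, ha, ?_⟩
      rw [QuotientGroup.eq]
      simpa using hh
  -- fixed cosets
  have hfix : ∀ a ∈ A, x • (a : G ⧸ H) = a ↔ a ∈ C := by
    intro a ha
    rw [hCfix a ha, MulAction.Quotient.smul_coe, QuotientGroup.eq, smul_eq_mul]
    constructor
    · intro h
      have h2 : (x * a)⁻¹ * a ∈ H := h
      have h3 : a⁻¹ * x * a = ((x * a)⁻¹ * a)⁻¹ := by group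
      rw [h3]
      exact H.inv_mem h2
    · intro h
      have h3 : (x * a)⁻¹ * a = (a⁻¹ * x * a)⁻¹ := by group
      rw [h3]
      exact H.inv_mem h
  -- some element of `A` is not in `C`
  have hne : ∃ a ∈ A, a ∉ C := by
    by_contra hcon
    push Not at hcon
    apply hH
    have h1 : Subgroup.normalClosure {x} ≤ H.normalCore := by
      refine Subgroup.normalClosure_le_normal ?_
      intro y hy
      have hyx : y = x := hy
      rw [hyx]
      intro g
      have hg : g⁻¹ ∈ ((A ⊔ H : Subgroup G) : Set G) := by rw [hsup]; trivial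
      rw [Subgroup.normal_mul] at hg
      obtain ⟨a, ha, h, hh, hah⟩ := Set.mem_mul.mp hg
      have h2 : a⁻¹ * x * a ∈ H := (hCfix a ha).mp (hcon a ha)
      have hg' : g = (a * h)⁻¹ := by
        have h3 : a * h = g⁻¹ := hah
        rw [h3, inv_inv]
      have h3 : g * x * g⁻¹ = h⁻¹ * (a⁻¹ * x * a) * h := by rw [hg']; group
      rw [h3]
      exact H.mul_mem (H.mul_mem (H.inv_mem hh) h2) hh
    rw [hgen] at h1
    exact top_le_iff.mp (h1.trans (Subgroup.normalCore_le H))
  obtain ⟨a, haA, haC⟩ := hne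
  -- the two other translates
  have hpair : ∃ a₂ ∈ A, a₂ ∉ C ∧ a⁻¹ * a₂ ∉ C := by
    by_contra hcon
    push Not at hcon
    have hcontra : π x * π a * (π x)⁻¹ = π a := by
      set c : G := a⁻¹ * (x * a * x⁻¹) with hc
      have hcA : c ∈ A := A.mul_mem (A.inv_mem haA) (hAn.conj_mem a haA x)
      have h1 : π x * π a * (π x)⁻¹ = π a * π c := by
        rw [hc]; simp only [map_mul, map_inv]; group
      have hac : π a * π c = π c * π a := hπc a haA c hcA
      -- the square of `a`
      have ha2 : a * a ∈ C := by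
        by_contra h
        have h2 := hcon (a * a) (A.mul_mem haA haA) h
        rw [inv_mul_cancel_left] at h2
        exact haC h2
      have hc2 : (π c) ^ 2 = 1 := by
        have h2 := ((hmemC _).mp ha2).2
        rw [map_mul] at h2
        have h3 : π x * (π a * π a) * (π x)⁻¹ = (π x * π a * (π x)⁻¹) * (π x * π a * (π x)⁻¹) := by group
        rw [h3, h1] at h2
        have h4 : π a * π c * (π a * π c) = π a * π a * (π c ^ 2) := by
          rw [sq]
          calc π a * π c * (π a * π c) = π a * (π c * π a) * π c := by group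
            _ = π a * (π a * π c) * π c := by rw [hac]
            _ = _ := by group
        rw [h4] at h2
        exact mul_left_cancel (a := π a * π a) (by rw [h2, mul_one])
      have hcC : c ∈ C := by
        by_contra h
        have h2 := hcon c hcA h
        have h3 := ((hmemC _).mp h2).2
        simp only [map_mul, map_inv] at h3
        have h4 : π x * ((π a)⁻¹ * π c) * (π x)⁻¹
            = (π x * π a * (π x)⁻¹)⁻¹ * (π x * π c * (π x)⁻¹) := by group
        rw [h4, h1] at h3
        have h5 : π x * π c * (π x)⁻¹ = 1 := by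
          have h6 : π x * π c * (π x)⁻¹ = (π a * π c) * ((π a)⁻¹ * π c) := by
            rw [← h3]; group
          rw [h6]
          calc π a * π c * ((π a)⁻¹ * π c) = (π c * π a) * ((π a)⁻¹ * π c) := by rw [hac]
            _ = π c ^ 2 := by rw [sq]; group
            _ = 1 := hc2
        have h6 : π c = 1 := by
          have : π c = (π x)⁻¹ * (π x * π c * (π x)⁻¹) * π x := by group
          rw [this, h5]; group
        rw [h6, mul_one] at h1
        exact haC ((hmemC a).mpr ⟨haA, h1⟩)
      have hcfix : π x * π c * (π x)⁻¹ = π c := ((hmemC c).mp hcC).2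
      have hxp : (π x) ^ p = 1 := by rw [← map_pow, hx, map_one]
      have hc1 : π c = 1 := eq_one_of_relations hp2 hxp h1 hcfix hc2
      rw [h1, hc1, mul_one]
    exact haC ((hmemC a).mpr ⟨haA, hcontra⟩)
  obtain ⟨b, hbA, hbC, habC⟩ := hpair
  -- disjointness
  have hBC : ∀ t ∈ B, t ∈ C := by
    intro t ht
    refine (hmemC t).mpr ⟨ht.1, ?_⟩
    rw [(hπ1 t).mpr ht]
    group
  have hdisj : ∀ u ∈ A, u ∉ C → ∀ c c' : {c : G ⧸ H // x • c = c}, u • (c : G ⧸ H) ≠ c' := by
    rintro u hu huC ⟨c, hc⟩ ⟨c', hc'⟩ heq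
    obtain ⟨s, hs, rfl⟩ := hrep c
    obtain ⟨s', hs', rfl⟩ := hrep c'
    have hsC := (hfix s hs).mp hc
    have hsC' := (hfix s' hs').mp hc'
    simp only [MulAction.Quotient.smul_coe, smul_eq_mul] at heq
    rw [QuotientGroup.eq] at heq
    have h1 : (u * s)⁻¹ * s' ∈ B := by
      refine ⟨A.mul_mem (A.inv_mem (A.mul_mem hu hs)) hs', heq⟩
    have h2 := hBC _ h1
    apply huC
    have h3 : u = s' * ((u * s)⁻¹ * s')⁻¹ * s⁻¹ := by group
    rw [h3]
    exact C.mul_mem (C.mul_mem hsC' (C.inv_mem h2)) (C.inv_mem hsC)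
  -- the injection
  let Φ : {c : G ⧸ H // x • c = c} × Fin 3 → G ⧸ H := fun y =>
    match y.2 with
    | 0 => (y.1 : G ⧸ H)
    | 1 => a • (y.1 : G ⧸ H)
    | 2 => b • (y.1 : G ⧸ H)
  have hΦ : Function.Injective Φ := by
    have hbinv : ∀ c c' : {c : G ⧸ H // x • c = c}, a • (c : G ⧸ H) ≠ b • (c' : G ⧸ H) := by
      intro c c' h
      have h1 : (a⁻¹ * b) • (c' : G ⧸ H) = c := by
        rw [mul_smul, ← h, inv_smul_smul]
      exact hdisj _ (A.mul_mem (A.inv_mem haA) hbA) habC c' c h1
    have hdisj' := hdisj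
    rintro ⟨c, i⟩ ⟨c', i'⟩ h
    fin_cases i <;> fin_cases i'
    · have h1 : (c : G ⧸ H) = c' := h
      rw [Subtype.ext h1]
    · exact absurd (show a • (c' : G ⧸ H) = c from (show (c : G ⧸ H) = a • (c' : G ⧸ H) from h).symm)
        (hdisj a haA haC c' c)
    · exact absurd (show b • (c' : G ⧸ H) = c from (show (c : G ⧸ H) = b • (c' : G ⧸ H) from h).symm)
        (hdisj b hbA hbC c' c)
    · exact absurd (show a • (c : G ⧸ H) = c' from h) (hdisj a haA haC c c')
    · have h1 : a • (c : G ⧸ H) = a • (c' : G ⧸ H) := h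
      rw [Subtype.ext (smul_left_cancel a h1)]
    · exact absurd (show a • (c : G ⧸ H) = b • (c' : G ⧸ H) from h) (hbinv c c')
    · exact absurd (show b • (c : G ⧸ H) = c' from h) (hdisj b hbA hbC c c')
    · exact absurd (show b • (c : G ⧸ H) = a • (c' : G ⧸ H) from h).symm (hbinv c' c)
    · have h1 : b • (c : G ⧸ H) = b • (c' : G ⧸ H) := h
      rw [Subtype.ext (smul_left_cancel b h1)]
  have hcard := Nat.card_le_card_of_injective Φ hΦ
  rw [Nat.card_prod, Nat.card_eq_fintype_card (α := Fin 3), Fintype.card_fin] at hcard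
  rw [mul_comm]
  exact hcard

/-- The transitive case. -/
theorem three_le_trans [Finite G] {p : ℕ} (hp2 : Odd p) (x : G) (hx : x ^ p = 1)
    (hgen : Subgroup.normalClosure {x} = ⊤) (H : Subgroup G) (hH : H ≠ ⊤)
    (A : Subgroup G) (hAn : A.Normal) (hcomm : ∀ a ∈ A, ∀ b ∈ A, a * b * a⁻¹ * b⁻¹ ∈ H)
    (hsup : A ⊔ H = ⊤) :
    3 * Nat.card {c : G ⧸ H // x • c = c} ≤ H.index := by
  classical
  by_cases hfix : Nonempty {c : G ⧸ H // x • c = c}
  · obtain ⟨⟨c₀, hc₀⟩⟩ := hfix
    obtain ⟨g₀, rfl⟩ := QuotientGroup.mk_surjective c₀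
    obtain ⟨x₁, hx₁⟩ : ∃ x₁, x₁ = g₀⁻¹ * x * g₀ := ⟨_, rfl⟩
    have hx₁H : x₁ ∈ H := by
      rw [MulAction.Quotient.smul_coe, QuotientGroup.eq, smul_eq_mul] at hc₀
      have h3 : x₁ = ((x * g₀)⁻¹ * g₀)⁻¹ := by rw [hx₁]; group
      rw [h3]
      exact H.inv_mem hc₀
    have hx₁p : x₁ ^ p = 1 := by
      have h3 : x₁ = MulAut.conj g₀⁻¹ x := by rw [hx₁, MulAut.conj_apply]; group
      rw [h3, ← map_pow, hx, map_one]
    have hgen₁ : Subgroup.normalClosure {x₁} = ⊤ := by
      rw [eq_top_iff, ← hgen]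
      refine Subgroup.normalClosure_le_normal ?_
      intro y hy
      have hyx : y = x := hy
      rw [hyx]
      have h3 : x = g₀ * x₁ * g₀⁻¹ := by rw [hx₁]; group
      rw [h3]
      have hN : (Subgroup.normalClosure ({x₁} : Set G)).Normal := inferInstance
      have hm : x₁ ∈ Subgroup.normalClosure ({x₁} : Set G) :=
        Subgroup.subset_normalClosure (Set.mem_singleton _)
      exact hN.conj_mem _ hm _
    have hcore := three_le_core hp2 x₁ hx₁p hgen₁ H hH hx₁H A hAn hcomm hsup
    refine le_trans ?_ hcore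
    refine Nat.mul_le_mul_left _ ?_
    -- translation
    let f : {c : G ⧸ H // x • c = c} → {c : G ⧸ H // x₁ • c = c} := fun c =>
      ⟨g₀⁻¹ • (c : G ⧸ H), by
        rw [← mul_smul, hx₁]
        have h3 : g₀⁻¹ * x * g₀ * g₀⁻¹ = g₀⁻¹ * x := by group
        rw [h3, mul_smul, c.2]⟩
    refine Nat.card_le_card_of_injective f ?_
    intro c c' h
    apply Subtype.ext
    exact smul_left_cancel _ (congrArg Subtype.val h)
  · rw [not_nonempty_iff] at hfix
    rw [Nat.card_of_isEmpty]
    omega

/-- The main bound, for coset spaces. -/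
theorem three_le_index [Finite G] [Group.IsSolvable G] {p : ℕ} (hp2 : Odd p) (x : G) (hx : x ^ p = 1)
    (hgen : Subgroup.normalClosure {x} = ⊤) (H : Subgroup G) (hH : H ≠ ⊤) :
    3 * Nat.card {c : G ⧸ H // x • c = c} ≤ H.index := by
  classical
  induction hn : H.index using Nat.strong_induction_on generalizing H with
  | _ n ih =>
  -- the normal subgroup
  obtain ⟨A, hAn, hAH, hcomm⟩ : ∃ A : Subgroup G, A.Normal ∧ ¬ A ≤ H ∧
      ∀ a ∈ A, ∀ b ∈ A, a * b * a⁻¹ * b⁻¹ ∈ H := by
    have hex : ∃ k, derivedSeries G k ≤ H := by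
      obtain ⟨k, hk⟩ := (Group.isSolvable_def G).mp inferInstance
      exact ⟨k, by rw [hk]; exact bot_le⟩
    have hk0 : Nat.find hex ≠ 0 := by
      intro h0
      have h1 := Nat.find_spec hex
      rw [h0, derivedSeries_zero] at h1
      exact hH (top_le_iff.mp h1)
    obtain ⟨i, hi⟩ := Nat.exists_eq_succ_of_ne_zero hk0
    refine ⟨derivedSeries G i, derivedSeries_normal G i, ?_, ?_⟩
    · exact Nat.find_min hex (by omega)
    · intro a ha b hb
      have h1 := Nat.find_spec hex
      rw [hi, Nat.succ_eq_add_one, derivedSeries_succ] at h1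
      exact h1 (Subgroup.commutator_mem_commutator ha hb)
  obtain ⟨L, hL⟩ : ∃ L, L = A ⊔ H := ⟨_, rfl⟩
  have hHL : H ≤ L := by rw [hL]; exact le_sup_right
  have hHL' : H < L := lt_of_le_of_ne hHL (fun h => hAH (by rw [h, hL]; exact le_sup_left))
  by_cases hLtop : L = ⊤
  · rw [← hn]
    exact three_le_trans hp2 x hx hgen H hH A hAn hcomm (by rw [← hL, hLtop])
  · -- the quotient action
    have hidx : L.index < n := by
      have h1 := Subgroup.relIndex_mul_index hHL
      have h2 : 1 < H.relIndex L := by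
        by_contra hcon
        have h3 : H.relIndex L ≠ 0 := by
          intro h
          rw [h, zero_mul] at h1
          rw [← hn] at *
          exact Subgroup.index_ne_zero_of_finite h1.symm
        have h4 : H.relIndex L = 1 := by omega
        rw [Subgroup.relIndex_eq_one] at h4
        exact absurd (le_antisymm hHL h4) (ne_of_lt hHL')
      have h3 : L.index ≠ 0 := Subgroup.index_ne_zero_of_finite
      rw [← hn, ← h1]
      exact lt_mul_of_one_lt_left (Nat.pos_of_ne_zero h3) h2
    have hih := ih _ hidx L hLtop rfl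
    have hfib : Nat.card {c : G ⧸ H // x • c = c} ≤
        Nat.card {c : G ⧸ L // x • c = c} * H.relIndex L := by
      let e := Subgroup.quotientEquivProdOfLE hHL
      let f : {c : G ⧸ H // x • c = c} → {c : G ⧸ L // x • c = c} × (L ⧸ H.subgroupOf L) := fun c =>
        (⟨(e c).1, by
          obtain ⟨c, hc⟩ := c
          induction c using QuotientGroup.induction_on with
          | H g =>
            rw [MulAction.Quotient.smul_coe, QuotientGroup.eq, smul_eq_mul] at hc
            show x • ((g : G ⧸ L)) = (g : G ⧸ L)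
            rw [MulAction.Quotient.smul_coe, QuotientGroup.eq, smul_eq_mul]
            exact hHL hc⟩, (e c).2)
      have hf : Function.Injective f := by
        intro c c' h
        apply Subtype.ext
        apply e.injective
        have h1 : (e c).1 = (e c').1 := congrArg (fun y => (y.1 : G ⧸ L)) h
        have h2 : (e c).2 = (e c').2 := congrArg (fun y => y.2) h
        exact Prod.ext h1 h2
      have := Nat.card_le_card_of_injective f hf
      rw [Nat.card_prod] at this
      exact this
    have h1 := Subgroup.relIndex_mul_index hHL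
    rw [← hn, ← h1]
    calc 3 * Nat.card {c : G ⧸ H // x • c = c}
        ≤ 3 * (Nat.card {c : G ⧸ L // x • c = c} * H.relIndex L) := Nat.mul_le_mul_left _ hfib
      _ = (3 * Nat.card {c : G ⧸ L // x • c = c}) * H.relIndex L := by ring
      _ ≤ L.index * H.relIndex L := Nat.mul_le_mul_right _ hih
      _ = _ := by ring

/-- The main bound, for transitive actions. -/
theorem three_le_card [Finite G] [Group.IsSolvable G] {p : ℕ} (hp2 : Odd p) (x : G) (hx : x ^ p = 1)
    (hgen : Subgroup.normalClosure {x} = ⊤) {Ω : Type v} [MulAction G Ω] [MulAction.IsPretransitive G Ω]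
    [Nontrivial Ω] : 3 * Nat.card {ω : Ω // x • ω = ω} ≤ Nat.card Ω := by
  classical
  obtain ⟨ω₀⟩ : Nonempty Ω := inferInstance
  let H := MulAction.stabilizer G ω₀
  have hH : H ≠ ⊤ := by
    intro h
    obtain ⟨ω₁, hω₁⟩ := exists_ne ω₀
    obtain ⟨g, hg⟩ := MulAction.exists_smul_eq G ω₀ ω₁
    have h1 : g ∈ H := by rw [h]; trivial
    have h2 : g • ω₀ = ω₀ := h1
    exact hω₁ (by rw [← hg, h2])
  have hmain := three_le_index hp2 x hx hgen H hH
  let φ : G ⧸ H → Ω := MulAction.ofQuotientStabilizer G ω₀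
  have hφinj : Function.Injective φ := MulAction.injective_ofQuotientStabilizer G ω₀
  have hφsurj : Function.Surjective φ := by
    intro ω
    obtain ⟨g, hg⟩ := MulAction.exists_smul_eq G ω₀ ω
    exact ⟨(g : G ⧸ H), hg⟩
  have hφsmul : ∀ (g : G) (c : G ⧸ H), φ (g • c) = g • φ c :=
    fun g c => MulAction.ofQuotientStabilizer_smul G ω₀ g c
  have hcard : H.index = Nat.card Ω := by
    rw [Subgroup.index]
    exact Nat.card_congr (Equiv.ofBijective φ ⟨hφinj, hφsurj⟩)
  have hfix : Nat.card {ω : Ω // x • ω = ω} ≤ Nat.card {c : G ⧸ H // x • c = c} := by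
    let f : {ω : Ω // x • ω = ω} → {c : G ⧸ H // x • c = c} := fun ω =>
      ⟨Function.surjInv hφsurj ω.1, by
        apply hφinj
        rw [hφsmul, Function.surjInv_eq hφsurj, ω.2]⟩
    refine Nat.card_le_card_of_injective f ?_
    intro ω ω' h
    apply Subtype.ext
    have h1 : Function.surjInv hφsurj ω.1 = Function.surjInv hφsurj ω'.1 := congrArg Subtype.val h
    exact Function.injective_surjInv hφsurj h1
  rw [← hcard]
  exact (Nat.mul_le_mul_left _ hfix).trans hmain

end Cfsg.Agent.Lib.FlavMTPerm
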