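import Mathlib
import Cfsg.Agent.Lib.HHCore
import Cfsg.Agent.Lib.HHChar

set_option autoImplicit false
set_option linter.unusedSectionVars false
set_option linter.unusedVariables false

namespace Cfsg.Agent.Lib.HHFermat

open Module Cfsg.Agent.Lib.HHCore Cfsg.Agent.Lib.HHChar
open scoped commutatorElement

universe u

section Aut

variable {R : Type*} [Group R]

/-- Restriction of an automorphism to an invariant subgroup. -/
def restrictAut (γ : MulAut R) (S : Subgroup R) (hS : ∀ s, s ∈ S ↔ γ s ∈ S) : MulAut S where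
  toFun x := ⟨γ x, (hS _).mp x.2⟩
  invFun x := ⟨γ⁻¹ x, (hS _).mpr (by
    have : γ (γ⁻¹ (x : R)) = x := by
      show (γ * γ⁻¹) (x : R) = x
      rw [mul_inv_cancel]; rfl
    rw [this]; exact x.2)⟩
  left_inv x := by
    apply Subtype.ext
    show (γ⁻¹ * γ) (x : R) = x
    rw [inv_mul_cancel]; rfl
  right_inv x := by
    apply Subtype.ext
    show (γ * γ⁻¹) (x : R) = x
    rw [mul_inv_cancel]; rfl
  map_mul' x y := by
    apply Subtype.ext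
    show γ ((x : R) * y) = γ x * γ y
    rw [map_mul]

theorem restrictAut_coe (γ : MulAut R) (S : Subgroup R) (hS : ∀ s, s ∈ S ↔ γ s ∈ S) (x : S) :
    ((restrictAut γ S hS x : S) : R) = γ x := rfl

theorem restrictAut_pow_coe (γ : MulAut R) (S : Subgroup R) (hS : ∀ s, s ∈ S ↔ γ s ∈ S) (j : ℕ) (x : S) :
    (((restrictAut γ S hS) ^ j) x : R) = (γ ^ j) x := by
  induction j with
  | zero => rfl
  | succ j ih =>
    rw [pow_succ', pow_succ' γ]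
    show (restrictAut γ S hS (((restrictAut γ S hS) ^ j) x) : R) = γ ((γ ^ j) x)
    rw [restrictAut_coe, ih]

theorem pow_mem_iff (γ : MulAut R) (S : Subgroup R) (hS : ∀ s, s ∈ S ↔ γ s ∈ S) (j : ℕ) (s : R) :
    s ∈ S ↔ (γ ^ j) s ∈ S := by
  induction j with
  | zero => rfl
  | succ j ih =>
    rw [pow_succ']
    show s ∈ S ↔ γ ((γ ^ j) s) ∈ S
    rw [← hS, ← ih]

theorem inv_iff_of_pow_eq_one (γ : MulAut R) (S : Subgroup R) (hS : ∀ s ∈ S, γ s ∈ S) {N : ℕ} (hN : 0 < N)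
    (hγ : γ ^ N = 1) (s : R) : s ∈ S ↔ γ s ∈ S := by
  refine ⟨hS s, fun h => ?_⟩
  have h1 : ∀ (j : ℕ) (x : R), x ∈ S → (γ ^ j) x ∈ S := by
    intro j
    induction j with
    | zero => intro x hx; exact hx
    | succ j ih =>
      intro x hx
      rw [pow_succ']
      exact hS _ (ih x hx)
  have h2 := h1 (N - 1) _ h
  have h3 : (γ ^ (N - 1)) (γ s) = s := by
    show (γ ^ (N - 1) * γ) s = s
    rw [← pow_succ, Nat.sub_add_cancel hN, hγ]; rfl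
  rwa [h3] at h2

theorem exists_twist {G : Type*} [Group G] [Finite G] (σ : MulAut G) (hfpf : ∀ g, σ g = g → g = 1) (w : G) :
    ∃ z, σ z * z⁻¹ = w := by
  have hinj : Function.Injective (fun z : G => σ z * z⁻¹) := by
    intro m n h
    have h1 : σ m * m⁻¹ = σ n * n⁻¹ := h
    have h2 : σ (n⁻¹ * m) = n⁻¹ * m := by
      rw [map_mul, map_inv]
      have h3 : σ m = σ n * n⁻¹ * m := by
        rw [← h1]; group
      rw [h3]; group
    exact (inv_mul_eq_one.mp (hfpf _ h2)).symm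
  exact Finite.surjective_of_injective hinj w

end Aut

variable {𝔽 : Type u} [Field 𝔽]

/-- The contradiction in the nonabelian section. -/
theorem core_contradiction [IsAlgClosed 𝔽] {U R : Type*} [AddCommGroup U] [Module 𝔽 U] [FiniteDimensional 𝔽 U]
    [Group R] [Fintype R]
    {p r n : ℕ} (hp : p.Prime) (hp2 : p ≠ 2) (hr : r.Prime) (hn : 1 ≤ n)
    (hRr : IsPGroup r R) (hpF : (p : 𝔽) ≠ 0) (hRF : (Fintype.card R : 𝔽) ≠ 0)
    (ρ : R →* End 𝔽 U) (hρ : Function.Injective ρ)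
    (σ : MulAut R) (hσ : σ ^ (p ^ n) = 1) (hfpf : ∀ s, σ s = s → s = 1)
    (τ : End 𝔽 U) (hτρ : ∀ s, τ * ρ s = ρ (σ s) * τ) (hτ : τ ^ (p ^ n) = 1)
    (hnorm : ∑ i ∈ Finset.range (p ^ n), τ ^ i = 0)
    (Z : Subgroup R) (hZc : ∀ z ∈ Z, ∀ s, z * s = s * z) (hZσ : ∀ z, z ∈ Z ↔ σ z ∈ Z)
    (hcomm : ∀ s t : R, ⁅s, t⁆ ∈ Z)
    (hT : ∀ s, (σ ^ (p ^ (n - 1))) s * s⁻¹ ∈ Z → s ∈ Z)
    (hirr : ∀ S : Subgroup R, Z ≤ S → (∀ s, s ∈ S ↔ σ s ∈ S) → S = Z ∨ S = ⊤)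
    (hna : ∃ s t : R, ⁅s, t⁆ ≠ 1) : False := by
  classical
  obtain ⟨s₀, t₀, hc₀⟩ := hna
  set c : R := ⁅s₀, t₀⁆ with hc
  have hpnpos : 0 < p ^ n := pow_pos hp.pos n
  have hcardsub : ∀ (S : Subgroup R) [Fintype S], (Fintype.card S : 𝔽) ≠ 0 := by
    intro S _ h0
    apply hRF
    have h1 := S.card_mul_index
    rw [Nat.card_eq_fintype_card, Nat.card_eq_fintype_card] at h1
    rw [← h1, Nat.cast_mul, h0, zero_mul]
  let _ : ∀ S : Subgroup R, Fintype S := fun S => Fintype.ofFinite _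
  -- Step 0: choose `μ`
  have hZnormal : Z.Normal := by
    refine ⟨fun z hz s => ?_⟩
    have := hZc z hz s
    rw [show s * z * s⁻¹ = z by rw [← this]; group]
    exact hz
  let ρZ : Z →* End 𝔽 U := ρ.comp Z.subtype
  have hx : (ρ c) ^ (Fintype.card R) = 1 := by
    rw [← map_pow, pow_card_eq_one, map_one]
  have hx1 : ρ c ≠ 1 := by
    intro h
    apply hc₀
    apply hρ
    rw [h, map_one]
  obtain ⟨a, ha1, hE⟩ := exists_eigenvalue_ne_one (ρ c) hRF hx hx1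
  have hcomm_c : ∀ z : Z, ρ (z : R) * ρ c = ρ c * ρ (z : R) := by
    intro z
    rw [← map_mul, ← map_mul, hZc z z.2 c]
  obtain ⟨μ, u₀, hu₀E, hu₀0, hu₀⟩ := exists_common_eigen ρZ (End.eigenspace (ρ c) a) hE
    (by
      intro z u hu
      rw [End.mem_eigenspace_iff] at hu ⊢
      have h1 := congrArg (fun y : End 𝔽 U => y u) (hcomm_c z)
      simp only [Module.End.mul_apply, hu, map_smul] at h1
      exact h1.symm)
    (by
      intro z z' u _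
      show ρ (z : R) (ρ (z' : R) u) = ρ (z' : R) (ρ (z : R) u)
      rw [← Module.End.mul_apply, ← Module.End.mul_apply, ← map_mul, ← map_mul, hZc z z.2 z'])
  have hcZ : c ∈ Z := hcomm s₀ t₀
  have hμc : μ ⟨c, hcZ⟩ = a := by
    have h1 : ρ c u₀ = μ ⟨c, hcZ⟩ • u₀ := hu₀ ⟨c, hcZ⟩
    have h2 : ρ c u₀ = a • u₀ := End.mem_eigenspace_iff.mp hu₀E
    exact smul_left_injective 𝔽 hu₀0 (h1.symm.trans h2)
  -- Step 1: the period of `μ`
  let σZ : MulAut Z := restrictAut σ Z hZσ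
  have hσZ : σZ ^ (p ^ n) = 1 := by
    ext z
    rw [restrictAut_pow_coe, hσ]; rfl
  obtain ⟨t₁, ht₁0, ht₁N, hper₁⟩ := exists_period σZ hpnpos hσZ μ
  obtain ⟨a₁, ha₁le, ha₁⟩ := (Nat.dvd_prime_pow hp).mp ht₁N
  have hg₁Z : ∀ z : Z, τ * ρZ z = ρZ (σZ z) * τ := fun z => hτρ z
  obtain ⟨K₁, hK₁⟩ : ∃ K₁, K₁ = p ^ (n - a₁) := ⟨_, rfl⟩
  have hN₁ : p ^ n = t₁ * K₁ := by
    rw [ha₁, hK₁, ← pow_add]; congr 1; omega
  have hdesc₁ : ∀ u ∈ wt ρZ μ, ∑ i ∈ Finset.range K₁, ((τ ^ t₁) ^ i) u = 0 := by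
    intro u hu
    apply descent (hcardsub Z) hg₁Z ht₁0 hper₁ hu
    rw [← hN₁]
    have := congrArg (fun y : End 𝔽 U => y u) hnorm
    simpa using this
  have ha₁n : a₁ < n := by
    by_contra hcon
    have hK : K₁ = 1 := by
      rw [hK₁]
      have : n - a₁ = 0 := by omega
      rw [this, pow_zero]
    have := hdesc₁ u₀ hu₀
    rw [hK] at this
    simp at this
    exact hu₀0 this
  set g₁ := τ ^ t₁ with hg₁
  set γ₁ : MulAut R := σ ^ t₁ with hγ₁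
  have hg₁ρ : ∀ s, g₁ * ρ s = ρ (γ₁ s) * g₁ := fun s => g_pow_mul hτρ t₁ s
  have hμγ : ∀ z : Z, μ ((σZ ^ t₁) z) = μ z := (hper₁ t₁).mpr dvd_rfl
  -- Step 2: the subspace `U₁`
  let U₁ : Submodule 𝔽 U := wt ρZ μ
  have hU₁inv : ∀ s, ∀ u ∈ U₁, ρ s u ∈ U₁ := by
    intro s u hu z
    show ρ (z : R) (ρ s u) = μ z • ρ s u
    have h1 : ρ (z : R) * ρ s = ρ s * ρ (z : R) := by rw [← map_mul, ← map_mul, hZc z z.2 s]
    have h2 := congrArg (fun y : End 𝔽 U => y u) h1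
    simp only [Module.End.mul_apply] at h2
    rw [h2]
    have h3 : ρ (z : R) u = μ z • u := hu z
    rw [h3, map_smul]
  have hU₁bot : U₁ ≠ ⊥ := by
    intro h
    have : u₀ ∈ U₁ := hu₀
    rw [h] at this
    exact hu₀0 ((Submodule.mem_bot _).mp this)
  have hU₁nt : Nontrivial U₁ := Submodule.nontrivial_iff_ne_bot.mpr hU₁bot
  let ω : R → R → 𝔽 := fun s t => μ ⟨⁅s, t⁆, hcomm s t⟩
  have hωrel : ∀ s t, ∀ w ∈ U₁, ρ s (ρ t w) = ω s t • ρ t (ρ s w) := by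
    intro s t w hw
    have h1 : s * t = ⁅s, t⁆ * (t * s) := by simp [commutatorElement_def]
    have h2 : ρ s (ρ t w) = ρ (s * t) w := by rw [map_mul]; rfl
    have h3 : ρ t (ρ s w) = ρ (t * s) w := by rw [map_mul]; rfl
    rw [h2, h3, h1, map_mul, Module.End.mul_apply]
    exact hU₁inv (t * s) w hw ⟨⁅s, t⁆, hcomm s t⟩
  let X₁ : CommRep 𝔽 U₁ R :=
    { ρ := restrictRep ρ U₁ hU₁inv
      ω := ω
      hω := by
        intro s t
        ext v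
        exact hωrel s t v v.2 }
  let Â : Subgroup R := X₁.radical
  have hmemÂ : ∀ s, s ∈ Â ↔ ∀ t, ω s t = 1 := fun s => Iff.rfl
  have hÂnormal : Â.Normal := X₁.radical_normal
  have hs₀ : s₀ ∉ Â := by
    intro h
    have h1 : ω s₀ t₀ = 1 := (hmemÂ s₀).mp h t₀
    have h2 : ω s₀ t₀ = a := hμc
    exact ha1 (h2.symm.trans h1)
  have hZÂ : Z ≤ Â := by
    intro z hz
    rw [hmemÂ]
    intro t
    show μ ⟨⁅z, t⁆, _⟩ = 1
    have h1 : ⁅z, t⁆ = 1 := commutatorElement_eq_one_iff_mul_comm.mpr (hZc z hz t)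
    have h2 : (⟨⁅z, t⁆, hcomm z t⟩ : Z) = 1 := Subtype.ext h1
    rw [h2, map_one]
  have hÂtop : Â ≠ ⊤ := fun h => hs₀ (h ▸ Subgroup.mem_top _)
  have hωγ : ∀ s t, ω (γ₁ s) (γ₁ t) = ω s t := by
    intro s t
    show μ ⟨⁅γ₁ s, γ₁ t⁆, _⟩ = μ ⟨⁅s, t⁆, _⟩
    rw [← hμγ ⟨⁅s, t⁆, hcomm s t⟩]
    congr 1
    apply Subtype.ext
    rw [restrictAut_pow_coe]
    exact (map_commutatorElement γ₁ s t).symm
  have hÂγ : ∀ s, s ∈ Â ↔ γ₁ s ∈ Â := by
    intro s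
    rw [hmemÂ, hmemÂ]
    constructor
    · intro h t
      obtain ⟨t', rfl⟩ := γ₁.surjective t
      rw [hωγ]; exact h t'
    · intro h t
      rw [← hωγ]; exact h _
  -- Step 3: the character of `Â`
  let ρL : Â →* End 𝔽 U := ρ.comp Â.subtype
  have hcommL : ∀ a b : Â, ∀ u ∈ U₁, ρL a (ρL b u) = ρL b (ρL a u) := by
    intro a b u hu
    show ρ a (ρ b u) = ρ b (ρ a u)
    rw [hωrel a b u hu, (hmemÂ a).mp a.2 b, one_smul]
  obtain ⟨lam, u₂, hu₂U₁, hu₂0, hu₂⟩ :=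
    exists_common_eigen ρL U₁ hU₁bot (fun a u hu => hU₁inv a u hu) hcommL
  let γL : MulAut Â := restrictAut γ₁ Â hÂγ
  have hγ₁K : γ₁ ^ K₁ = 1 := by rw [hγ₁, ← pow_mul, ← hN₁, hσ]
  have hγLK : γL ^ K₁ = 1 := by
    ext a
    rw [restrictAut_pow_coe, hγ₁K]; rfl
  have hK₁pos : 0 < K₁ := by rw [hK₁]; exact pow_pos hp.pos _
  obtain ⟨t₂, ht₂0, ht₂K, hper₂⟩ := exists_period γL hK₁pos hγLK lam
  obtain ⟨a₂, ha₂le, ha₂⟩ := (Nat.dvd_prime_pow hp).mp (hK₁ ▸ ht₂K)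
  obtain ⟨K₂, hK₂⟩ : ∃ K₂, K₂ = p ^ (n - a₁ - a₂) := ⟨_, rfl⟩
  have hK₁eq : K₁ = t₂ * K₂ := by
    rw [hK₁, ha₂, hK₂, ← pow_add]; congr 1; omega
  have hg₁L : ∀ a : Â, g₁ * ρL a = ρL (γL a) * g₁ := fun a => hg₁ρ a
  let U₂ : Submodule 𝔽 U := wt ρL lam
  have hlamμ : ∀ z (hz : z ∈ Z), lam ⟨z, hZÂ hz⟩ = μ ⟨z, hz⟩ := by
    intro z hz
    have h1 : ρ z u₂ = lam ⟨z, hZÂ hz⟩ • u₂ := hu₂ ⟨z, hZÂ hz⟩
    have h2 : ρ z u₂ = μ ⟨z, hz⟩ • u₂ := hu₂U₁ ⟨z, hz⟩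
    exact smul_left_injective 𝔽 hu₂0 (h1.symm.trans h2)
  have hU₂U₁ : U₂ ≤ U₁ := by
    intro w hw z
    show ρ (z : R) w = μ z • w
    have h1 : ρ (z : R) w = lam ⟨z, hZÂ z.2⟩ • w := hw ⟨z, hZÂ z.2⟩
    rw [h1, hlamμ z z.2]
  have hdesc₂ : ∀ u ∈ U₂, ∑ i ∈ Finset.range K₂, ((g₁ ^ t₂) ^ i) u = 0 := by
    intro u hu
    apply descent (hcardsub Â) hg₁L ht₂0 hper₂ hu
    rw [← hK₁eq]
    exact hdesc₁ u (hU₂U₁ hu)
  have ha₂lt : a₁ + a₂ < n := by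
    by_contra hcon
    have hK : K₂ = 1 := by
      rw [hK₂]
      have : n - a₁ - a₂ = 0 := by omega
      rw [this, pow_zero]
    have := hdesc₂ u₂ hu₂
    rw [hK] at this
    simp at this
    exact hu₂0 this
  -- Step 4: the subspace `U₂`
  obtain ⟨b, hb⟩ : ∃ b, b = n - a₁ - a₂ := ⟨_, rfl⟩
  have hb1 : 1 ≤ b := by omega
  have hK₂b : K₂ = p ^ b := by rw [hK₂, hb]
  have hU₂inv : ∀ s, ∀ u ∈ U₂, ρ s u ∈ U₂ := by
    intro s u hu a
    show ρ (a : R) (ρ s u) = lam a • ρ s u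
    have h1 := hωrel a s u (hU₂U₁ hu)
    rw [h1, (hmemÂ a).mp a.2 s, one_smul]
    have h2 : ρ (a : R) u = lam a • u := hu a
    rw [h2, map_smul]
  have hlamγ : ∀ a : Â, lam ((γL ^ t₂) a) = lam a := (hper₂ t₂).mpr dvd_rfl
  set g₂ := g₁ ^ t₂ with hg₂
  have hg₂U₂ : ∀ u ∈ U₂, g₂ u ∈ U₂ := fun u hu => pow_mem_wt hg₁L hlamγ hu
  set γ₂ : MulAut R := γ₁ ^ t₂ with hγ₂
  have hg₂ρ : ∀ s, g₂ * ρ s = ρ (γ₂ s) * g₂ := fun s => g_pow_mul hg₁ρ t₂ s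
  have hU₂bot : U₂ ≠ ⊥ := by
    intro h
    have : u₂ ∈ U₂ := hu₂
    rw [h] at this
    exact hu₂0 ((Submodule.mem_bot _).mp this)
  have hU₂nt : Nontrivial U₂ := Submodule.nontrivial_iff_ne_bot.mpr hU₂bot
  let X₂ : HHRep 𝔽 U₂ R :=
    { ρ := restrictRep ρ U₂ hU₂inv
      ω := ω
      hω := by
        intro s t
        ext v
        exact hωrel s t v (hU₂U₁ v.2)
      hscal := by
        intro s hs
        refine ⟨lam ⟨s, hs⟩, ?_⟩
        ext v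
        exact v.2 ⟨s, hs⟩ }
  have hX₂rad : X₂.radical = Â := by
    ext s
    exact Iff.rfl
  -- exponents
  have ht₁₂ : t₁ * t₂ * p ^ b = p ^ n := by
    rw [ha₁, ha₂, ← pow_add, ← pow_add]; congr 1; omega
  have hγ₂eq : γ₂ = σ ^ (t₁ * t₂) := by rw [hγ₂, hγ₁, pow_mul]
  have hγ₂N : γ₂ ^ (p ^ b) = 1 := by rw [hγ₂eq, ← pow_mul, ht₁₂, hσ]
  have hγ₂σ₀ : γ₂ ^ (p ^ (b - 1)) = σ ^ (p ^ (n - 1)) := by
    rw [hγ₂eq, ← pow_mul]
    congr 1
    rw [ha₁, ha₂, ← pow_add, ← pow_add]; congr 1; omega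
  have hÂγ₂ : ∀ s, s ∈ Â ↔ γ₂ s ∈ Â := pow_mem_iff γ₁ Â hÂγ t₂
  have hZnormal' := hZnormal
  have hfix : ∀ s, (γ₂ ^ (p ^ (b - 1))) s * s⁻¹ ∈ Â → s ∈ Â := by
    intro s hs
    rw [hγ₂σ₀] at hs
    refine fpf_rel (σ ^ (p ^ (n - 1))) Z Â hZÂ (pow_mem_iff σ Z hZσ _) ?_ hT hs
    intro y hy
    rw [← hγ₂σ₀]
    exact (pow_mem_iff γ₂ Â hÂγ₂ _ y).mp hy
  obtain ⟨Ξ, hΞ1, hΞ2⟩ := exists_transversal Â γ₂ hÂγ₂ hp hb1 hγ₂N hfix
  -- Step 5: the Hall--Higman inequality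
  let g₂' : End 𝔽 U₂ := g₂.restrict hg₂U₂
  have hg₂' : ∀ s, g₂' * X₂.ρ s = X₂.ρ (γ₂ s) * g₂' := by
    intro s
    ext v
    have h1 := congrArg (fun y : End 𝔽 U => y (v : U)) (hg₂ρ s)
    exact h1
  have hNpos : 0 < p ^ b := pow_pos hp.pos b
  have hNF : ((p ^ b : ℕ) : 𝔽) ≠ 0 := by
    rw [Nat.cast_pow]; exact pow_ne_zero _ hpF
  have hg₂N : g₂ ^ (p ^ b) = 1 := by
    rw [hg₂, hg₁, ← pow_mul, ← pow_mul, ← mul_assoc, ht₁₂, hτ]
  have hg₂'N : g₂' ^ (p ^ b) = 1 := by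
    ext v
    rw [restrict_pow_coe, hg₂N]; rfl
  have hg₂'norm : ∑ j ∈ Finset.range (p ^ b), g₂' ^ j = 0 := by
    ext v
    have h1 := hdesc₂ v v.2
    rw [hK₂b] at h1
    rw [LinearMap.sum_apply, AddSubmonoidClass.coe_finsetSum]
    refine Eq.trans (Finset.sum_congr rfl fun j _ => ?_) h1
    exact restrict_pow_coe g₂ U₂ hg₂U₂ j v
  obtain ⟨D, hD1, hD2⟩ := X₂.hh_lemma hRF g₂' γ₂ hg₂' hNpos hNF hg₂'N hg₂'norm Ξ (by
    rw [hX₂rad]; exact hΞ1)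
  rw [hX₂rad] at hD1
  -- Step 6: numbers
  have hidx1 : Â.index ≠ 1 := fun h => hÂtop (Subgroup.index_eq_one.mp h)
  have hidx0 : Â.index ≠ 0 := Subgroup.index_ne_zero_of_finite
  have hD2le : 2 ≤ D := by
    by_contra hcon
    have : D = 0 ∨ D = 1 := by omega
    rcases this with rfl | rfl
    · exact hidx0 (by rw [hD1]; norm_num)
    · exact hidx1 (by rw [hD1]; norm_num)
  have hDeq : D = p ^ b - 1 := D_eq hp hp2 hb1 hD2le hD2 (by rw [hΞ2, hD1])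
  have hrF : Fact r.Prime := ⟨hr⟩
  obtain ⟨k, hk⟩ := (IsPGroup.iff_card (p := r) (G := R)).mp hRr
  have hidx_dvd : Â.index ∣ r ^ k := by
    rw [← hk]; exact Subgroup.index_dvd_card _
  have hDdvd : D ∣ r ^ k := (dvd_pow_self D two_ne_zero).trans (hD1 ▸ hidx_dvd)
  have hpodd : Odd (p ^ b) := (hp.odd_of_ne_two hp2).pow
  have hDeven : 2 ∣ D := by
    rw [hDeq]
    obtain ⟨y, hy⟩ := hpodd
    rw [hy]
    exact ⟨y, by omega⟩
  have hr2 : r = 2 := by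
    have h1 := hDeven.trans hDdvd
    have h2 := Nat.prime_two.dvd_of_dvd_pow h1
    exact ((Nat.prime_dvd_prime_iff_eq Nat.prime_two hr).mp h2).symm
  subst hr2
  obtain ⟨m, -, hm⟩ := (Nat.dvd_prime_pow Nat.prime_two).mp hDdvd
  have hm1 : 1 ≤ m := by
    by_contra hcon
    have : m = 0 := by omega
    rw [this, pow_zero] at hm
    omega
  have hpb : p ^ b = 2 ^ m + 1 := by omega
  -- Step 7: the index of `Z`
  have hZÂ' : Z ≠ ⊤ := by
    intro h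
    apply hÂtop
    rw [eq_top_iff, ← h]
    exact hZÂ
  obtain ⟨z', -, hz'⟩ := (Nat.dvd_prime_pow Nat.prime_two).mp
    ((Subgroup.index_dvd_card Z).trans (by rw [hk] : Nat.card R ∣ 2 ^ k))
  set s := z' with hsdef
  have hs0 : 0 < s := by
    by_contra hcon
    have : s = 0 := by omega
    rw [this, pow_zero] at hz'
    exact hZÂ' (Subgroup.index_eq_one.mp hz')
  obtain ⟨Ξ', hΞ'1, hΞ'2⟩ := exists_transversal Z σ hZσ hp hn hσ hT
  have hpnd : p ^ n ∣ 2 ^ s - 1 := by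
    rw [← hz', ← hΞ'2]
    simp
  -- Step 8: the intersection of the radicals
  let Ŷ : Subgroup R :=
    { carrier := {s | ∀ k : ℕ, (σ ^ k) s ∈ Â}
      mul_mem' := by intro x y hx hy k; rw [map_mul]; exact Â.mul_mem (hx k) (hy k)
      one_mem' := by intro k; rw [map_one]; exact Â.one_mem
      inv_mem' := by intro x hx k; rw [map_inv]; exact Â.inv_mem (hx k) }
  have hmemŶ : ∀ s, s ∈ Ŷ ↔ ∀ k : ℕ, (σ ^ k) s ∈ Â := fun s => Iff.rfl
  have hZŶ : Z ≤ Ŷ := fun z hz k => hZÂ ((pow_mem_iff σ Z hZσ k z).mp hz)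
  have hŶÂ : Ŷ ≤ Â := fun s hs => by simpa using hs 0
  have hŶσ : ∀ s, s ∈ Ŷ ↔ σ s ∈ Ŷ := by
    intro s
    rw [hmemŶ, hmemŶ]
    constructor
    · intro h k
      have := h (k + 1)
      rw [pow_succ] at this
      exact this
    · intro h k
      have h1 := h (k + (p ^ n - 1))
      have h2 : (σ ^ (k + (p ^ n - 1))) (σ s) = (σ ^ k) s := by
        show (σ ^ (k + (p ^ n - 1)) * σ) s = _
        rw [← pow_succ, add_assoc, Nat.sub_add_cancel hpnpos, pow_add, hσ, mul_one]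
      rwa [h2] at h1
  have hŶZ : Ŷ = Z := (hirr Ŷ hZŶ hŶσ).resolve_right
    (fun h => hÂtop (by rw [eq_top_iff, ← h]; exact hŶÂ))
  -- the norm of `μ` is trivial
  let ν : Z → 𝔽 := fun z => ∏ k ∈ Finset.range t₁, μ ((σZ ^ k) z)
  have hνmul : ∀ z z', ν (z * z') = ν z * ν z' := by
    intro z z'
    simp only [ν, map_mul, Finset.prod_mul_distrib]
  have hνone : ν 1 = 1 := by simp [ν]
  have hνσ : ∀ z, ν (σZ z) = ν z := by
    intro z
    have h1 : ν (σZ z) = ∏ k ∈ Finset.range t₁, μ ((σZ ^ (k + 1)) z) := by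
      refine Finset.prod_congr rfl fun k _ => ?_
      rw [pow_succ]; rfl
    have h2 := Finset.prod_range_succ (fun k => μ ((σZ ^ k) z)) t₁
    have h3 := Finset.prod_range_succ' (fun k => μ ((σZ ^ k) z)) t₁
    have h4 : μ ((σZ ^ t₁) z) = μ ((σZ ^ 0) z) := by rw [hμγ]; rfl
    simp only [h4] at h2
    have h5 : μ ((σZ ^ 0) z) ≠ 0 := lam_ne_zero μ _
    rw [h1]
    apply mul_right_cancel₀ h5
    rw [← h3, h2]
  have hσZfix : ∀ z : Z, σZ z = z → z = 1 := by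
    intro z hz
    apply Subtype.ext
    exact hfpf _ (congrArg Subtype.val hz)
  have hνtriv : ∀ w : Z, ν w = 1 := by
    intro w
    obtain ⟨z, rfl⟩ := exists_twist σZ hσZfix w
    rw [hνmul, hνσ, ← hνmul, mul_inv_cancel, hνone]
  -- the index bound
  obtain ⟨t', ht'⟩ : ∃ t', t₁ = t' + 1 := ⟨t₁ - 1, by omega⟩
  let f : Fin t' → Subgroup R := fun k => Â.comap ((σ ^ ((k : ℕ) + 1) : MulAut R).toMonoidHom)
  have hfle : (⨅ k, f k) ≤ Ŷ := by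
    intro x hx
    have hx1 : ∀ k : ℕ, k < t' → (σ ^ (k + 1)) x ∈ Â := by
      intro k hk
      exact (Subgroup.mem_iInf.mp hx) ⟨k, hk⟩
    have hx0 : x ∈ Â := by
      rw [hmemÂ]
      intro t
      have h1 := hνtriv ⟨⁅x, t⁆, hcomm x t⟩
      simp only [ν] at h1
      rw [ht', Finset.prod_range_succ'] at h1
      have h2 : ∀ k ∈ Finset.range t', μ ((σZ ^ (k + 1)) ⟨⁅x, t⁆, hcomm x t⟩) = 1 := by
        intro k hk
        have h3 := (hmemÂ _).mp (hx1 k (Finset.mem_range.mp hk)) ((σ ^ (k + 1)) t)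
        have h4 : ω ((σ ^ (k + 1)) x) ((σ ^ (k + 1)) t) = μ ((σZ ^ (k + 1)) ⟨⁅x, t⁆, hcomm x t⟩) := by
          show μ _ = μ _
          congr 1
          apply Subtype.ext
          rw [restrictAut_pow_coe]
          exact (map_commutatorElement _ x t).symm
        rw [← h4, h3]
      rw [Finset.prod_eq_one h2, one_mul] at h1
      exact h1
    rw [hmemŶ]
    intro k
    have hk' := Nat.div_add_mod k t₁
    have hlt := Nat.mod_lt k ht₁0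
    set q := k / t₁
    set k' := k % t₁
    have h1 : (σ ^ k) x = (γ₁ ^ q) ((σ ^ k') x) := by
      show _ = (γ₁ ^ q * σ ^ k') x
      rw [hγ₁, ← pow_mul, ← pow_add, hk']
    rw [h1]
    refine (pow_mem_iff γ₁ Â hÂγ q _).mp ?_
    rcases Nat.eq_zero_or_pos k' with h0 | h0
    · rw [h0]; exact hx0
    · obtain ⟨k'', hk''⟩ : ∃ k'', k' = k'' + 1 := ⟨k' - 1, by omega⟩
      rw [hk'']
      exact hx1 k'' (by omega)
  have hfidx : ∀ k, (f k).index = Â.index := fun k =>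
    Subgroup.index_comap_of_surjective _ (σ ^ ((k : ℕ) + 1) : MulAut R).surjective
  have hidxle : Z.index ≤ Â.index ^ t' := by
    have h1 : Z.index ≤ (⨅ k, f k).index := by
      apply Nat.le_of_dvd (Nat.pos_of_ne_zero Subgroup.index_ne_zero_of_finite)
      exact Subgroup.index_dvd_of_le (hŶZ ▸ hfle)
    have h2 := Subgroup.index_iInf_le f
    simp only [hfidx, Finset.prod_const, Finset.card_univ, Fintype.card_fin] at h2
    exact h1.trans h2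
  have hsle : s ≤ m * (2 * t') := by
    rw [hz', hD1, hm, ← pow_mul, ← pow_mul] at hidxle
    exact (Nat.pow_le_pow_iff_right (a := 2) (by norm_num)).mp hidxle
  have hfin := fermat_contra (a := a₁) hp hp2 hb1 hm1 hpb hs0 ((pow_dvd_pow p (by omega)).trans hpnd)
  rw [← ha₁, ht'] at hfin
  have h3 : 2 * m * (t' + 1) = m * (2 * t') + 2 * m := by ring
  omega

end Cfsg.Agent.Lib.HHFermat
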