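import Mathlib
import Cfsg.Agent.Lib.HHFermat

/-!
# Free counts for a fixed-point-free pair `L ⋊ ⟨g⟩`

Let `L` be a finite abelian group of order prime to the characteristic, acting without nonzero fixed
vectors, and `g` an operator of prime order `p` normalizing the action, inducing on `L` a
fixed-point-free automorphism. Then `p * dim ker (g - 1) ≤ dim`, and `g` has a nonzero fixed vector.
-/

set_option autoImplicit false
set_option linter.unusedSectionVars false
set_option linter.unusedVariables false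
set_option linter.style.haveILetI false

namespace Cfsg.Agent.Lib.WardSym

open Module Cfsg.Agent.Lib.HHCore Cfsg.Agent.Lib.HHChar Cfsg.Agent.Lib.HHFermat
open scoped TensorProduct

universe u

/-- Transversal of a free action of a cyclic group of prime order on an invariant finite set. -/
theorem exists_free_transversal {X : Type*} [DecidableEq X] (π : Equiv.Perm X) {p : ℕ} (hp : p.Prime)
    (hπ : π ^ p = 1) :
    ∀ (n : ℕ) (S : Finset X), S.card = n → (∀ x ∈ S, π x ∈ S) → (∀ x ∈ S, π x ≠ x) →
      ∃ Ξ : Finset X, Ξ ⊆ S ∧ (∀ x ∈ S, ∃ ξ ∈ Ξ, ∃ j : ℕ, (π ^ j) ξ = x) ∧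
        ∀ f : X → ℕ, (∀ x, f (π x) = f x) → ∑ x ∈ S, f x = p * ∑ ξ ∈ Ξ, f ξ := by
  intro n
  induction n using Nat.strong_induction_on with
  | _ n IH =>
    intro S hn hS hfree
    by_cases hSe : S = ∅
    · subst hSe
      exact ⟨∅, by simp, by simp, by simp⟩
    obtain ⟨x, hx⟩ := Finset.nonempty_iff_ne_empty.mpr hSe
    have hpow : ∀ (j : ℕ) (y : X), y ∈ S → (π ^ j) y ∈ S := by
      intro j
      induction j with
      | zero => intro y hy; simpa using hy
      | succ j ih =>
        intro y hy
        rw [pow_succ']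
        exact hS _ (ih y hy)
    -- periods
    have hper : ∀ y ∈ S, ∀ d, 0 < d → d < p → (π ^ d) y ≠ y := by
      intro y hy d hd0 hdp h
      have h1 : Function.IsPeriodicPt π d y := by
        show π^[d] y = y
        rw [Equiv.Perm.iterate_eq_pow]; exact h
      have h2 : Function.IsPeriodicPt π p y := by
        show π^[p] y = y
        rw [Equiv.Perm.iterate_eq_pow, hπ]; rfl
      have h3 : Function.minimalPeriod π y ∣ p := h2.minimalPeriod_dvd
      rcases (Nat.dvd_prime hp).mp h3 with h4 | h4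
      · have : Function.IsFixedPt π y := Function.minimalPeriod_eq_one_iff_isFixedPt.mp h4
        exact hfree y hy this
      · have h5 := h1.minimalPeriod_dvd
        rw [h4] at h5
        exact absurd (Nat.le_of_dvd hd0 h5) (by omega)
    have hinj : Set.InjOn (fun j : ℕ => (π ^ j) x) (Finset.range p : Set ℕ) := by
      have key : ∀ i j, i < j → j < p → (π ^ i) x ≠ (π ^ j) x := by
        intro i j hij hj h
        apply hper x hx (j - i) (by omega) (by omega)
        have h2 : π ^ j = π ^ i * π ^ (j - i) := by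
          rw [← pow_add]; congr 1; omega
        rw [h2, Equiv.Perm.mul_apply] at h
        exact ((π ^ i).injective h).symm
      intro i hi j hj h
      simp only [Finset.coe_range, Set.mem_Iio] at hi hj
      rcases lt_trichotomy i j with h1 | h1 | h1
      · exact absurd h (key i j h1 hj)
      · exact h1
      · exact absurd h.symm (key j i h1 hi)
    set O : Finset X := (Finset.range p).image (fun j => (π ^ j) x) with hO
    have hOcard : O.card = p := by
      rw [hO, Finset.card_image_of_injOn hinj, Finset.card_range]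
    have hOS : O ⊆ S := by
      intro y hy
      obtain ⟨j, -, rfl⟩ := Finset.mem_image.mp hy
      exact hpow j x hx
    have hOπ : ∀ y, y ∈ O ↔ π y ∈ O := by
      intro y
      constructor
      · intro hy
        obtain ⟨j, hj, rfl⟩ := Finset.mem_image.mp hy
        have hj' : j < p := Finset.mem_range.mp hj
        refine Finset.mem_image.mpr ?_
        by_cases hjp : j + 1 < p
        · exact ⟨j + 1, Finset.mem_range.mpr hjp, by rw [pow_succ']; rfl⟩
        · have hje : j + 1 = p := by omega
          refine ⟨0, Finset.mem_range.mpr hp.pos, ?_⟩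
          have h1 : π ((π ^ j) x) = (π ^ (j + 1)) x := by rw [pow_succ']; rfl
          show (π ^ 0) x = π ((π ^ j) x)
          rw [h1, hje, hπ]; rfl
      · intro hy
        obtain ⟨j, hj, hjy⟩ := Finset.mem_image.mp hy
        have hj' : j < p := Finset.mem_range.mp hj
        refine Finset.mem_image.mpr ?_
        have hjy' : (π ^ j) x = π y := hjy
        by_cases hj0 : j = 0
        · refine ⟨p - 1, Finset.mem_range.mpr (by have := hp.pos; omega), ?_⟩
          apply π.injective
          show π ((π ^ (p - 1)) x) = π y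
          have h1 : π ((π ^ (p - 1)) x) = (π ^ (p - 1 + 1)) x := by rw [pow_succ']; rfl
          rw [h1, Nat.sub_add_cancel hp.pos, hπ, ← hjy', hj0]
          rfl
        · refine ⟨j - 1, Finset.mem_range.mpr (by omega), ?_⟩
          apply π.injective
          show π ((π ^ (j - 1)) x) = π y
          have h1 : π ((π ^ (j - 1)) x) = (π ^ (j - 1 + 1)) x := by rw [pow_succ']; rfl
          rw [h1, Nat.sub_add_cancel (by omega), hjy']
    have hxO : x ∈ O := Finset.mem_image.mpr ⟨0, Finset.mem_range.mpr hp.pos, by simp⟩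
    have hlt : (S \ O).card < n := by
      rw [← hn]
      apply Finset.card_lt_card
      refine ⟨Finset.sdiff_subset, fun h => ?_⟩
      have := h hx
      exact (Finset.mem_sdiff.mp this).2 hxO
    obtain ⟨Ξ, hΞ1, hΞ2, hΞ3⟩ := IH _ hlt (S \ O) rfl
      (by
        intro y hy
        obtain ⟨hy1, hy2⟩ := Finset.mem_sdiff.mp hy
        exact Finset.mem_sdiff.mpr ⟨hS y hy1, fun h => hy2 ((hOπ y).mpr h)⟩)
      (fun y hy => hfree y (Finset.mem_sdiff.mp hy).1)
    have hxΞ : x ∉ Ξ := fun h => (Finset.mem_sdiff.mp (hΞ1 h)).2 hxO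
    refine ⟨insert x Ξ, ?_, ?_, ?_⟩
    · intro y hy
      rcases Finset.mem_insert.mp hy with rfl | h
      · exact hx
      · exact (Finset.mem_sdiff.mp (hΞ1 h)).1
    · intro y hy
      by_cases hyO : y ∈ O
      · obtain ⟨j, -, rfl⟩ := Finset.mem_image.mp hyO
        exact ⟨x, Finset.mem_insert_self _ _, j, rfl⟩
      · obtain ⟨ξ, hξ, j, hj⟩ := hΞ2 y (Finset.mem_sdiff.mpr ⟨hy, hyO⟩)
        exact ⟨ξ, Finset.mem_insert_of_mem hξ, j, hj⟩
    · intro f hf
      have hfpow : ∀ (j : ℕ) (y : X), f ((π ^ j) y) = f y := by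
        intro j
        induction j with
        | zero => intro y; rfl
        | succ j ih =>
          intro y
          rw [pow_succ']
          show f (π ((π ^ j) y)) = f y
          rw [hf, ih]
      rw [Finset.sum_insert hxΞ, mul_add, ← hΞ3 f hf]
      have h1 : ∑ y ∈ O, f y = p * f x := by
        rw [hO, Finset.sum_image hinj]
        simp [hfpow]
      rw [← h1, add_comm]
      exact (Finset.sum_sdiff hOS).symm

section FC

variable {K : Type u} [Field K] {𝓜 : Type*} [AddCommGroup 𝓜] [Module K 𝓜]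
  {L : Type*} [Group L] [Fintype L] (ψ : L →* End K 𝓜)

/-- The averaging operator of a character. -/
noncomputable def prj (χ : L →* K) : End K 𝓜 := ∑ a, (χ a)⁻¹ • ψ a

theorem prj_apply_wt (χ χ' : L →* K) {u : 𝓜} (hu : u ∈ wt ψ χ') :
    prj ψ χ u = (∑ a, χ' a * (χ a)⁻¹) • u := by
  unfold prj
  rw [LinearMap.sum_apply, Finset.sum_smul]
  refine Finset.sum_congr rfl fun a _ => ?_
  rw [LinearMap.smul_apply, hu a, smul_smul, mul_comm]

theorem prj_self (χ : L →* K) {u : 𝓜} (hu : u ∈ wt ψ χ) : prj ψ χ u = (Fintype.card L : K) • u := by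
  rw [prj_apply_wt ψ χ χ hu]
  have h : ∀ a, χ a * (χ a)⁻¹ = 1 := fun a => mul_inv_cancel₀ (lam_ne_zero χ a)
  simp [h]

theorem prj_other {χ χ' : L →* K} (hne : χ' ≠ χ) {u : 𝓜} (hu : u ∈ wt ψ χ') : prj ψ χ u = 0 := by
  rw [prj_apply_wt ψ χ χ' hu]
  have h : ∃ a, χ' a ≠ χ a := by
    by_contra hcon
    push Not at hcon
    exact hne (MonoidHom.ext hcon)
  rw [sum_ratio χ' χ h, zero_smul]

theorem prj_mem (χ : L →* K) (v : 𝓜) : prj ψ χ v ∈ wt ψ χ := by
  intro b
  have h1 : ψ b (prj ψ χ v) = ∑ a, (χ a)⁻¹ • ψ (b * a) v := by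
    unfold prj
    rw [LinearMap.sum_apply, map_sum]
    refine Finset.sum_congr rfl fun a _ => ?_
    rw [LinearMap.smul_apply, map_smul, map_mul, Module.End.mul_apply]
  rw [h1]
  have h2 : χ b • prj ψ χ v = ∑ a, ((χ a)⁻¹ * χ b) • ψ a v := by
    unfold prj
    rw [LinearMap.sum_apply, Finset.smul_sum]
    refine Finset.sum_congr rfl fun a _ => ?_
    rw [LinearMap.smul_apply, smul_smul, mul_comm]
  rw [h2, ← Equiv.sum_comp (Equiv.mulLeft b) (fun a => ((χ a)⁻¹ * χ b) • ψ a v)]
  refine Finset.sum_congr rfl fun a _ => ?_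
  simp only [Equiv.coe_mulLeft, map_mul, mul_inv]
  rw [mul_comm (χ b)⁻¹, mul_assoc, inv_mul_cancel₀ (lam_ne_zero χ b), mul_one]

variable {ψ}

/-- Characters of a finite group in a field are finite in number. -/
theorem finite_chars : Finite (L →* K) := by
  classical
  have hval : ∀ (χ : L →* K) (a : L), χ a ∈ Polynomial.nthRootsFinset (Fintype.card L) (1 : K) := by
    intro χ a
    rw [Polynomial.mem_nthRootsFinset Fintype.card_pos]
    rw [← map_pow, pow_card_eq_one, map_one]
  let f : (L →* K) → (L → (Polynomial.nthRootsFinset (Fintype.card L) (1 : K))) :=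
    fun χ a => ⟨χ a, hval χ a⟩
  refine Finite.of_injective f ?_
  intro χ χ' h
  ext a
  exact congrArg Subtype.val (congrFun h a)

variable {g : End K 𝓜} {γ : MulAut L}

/-- Twisting a character. -/
def twistChar (γ : MulAut L) : Equiv.Perm (L →* K) where
  toFun χ := χ.comp ((γ⁻¹ : MulAut L) : L →* L)
  invFun χ := χ.comp (γ : L →* L)
  left_inv χ := by
    ext a
    show χ ((γ⁻¹ : MulAut L) (γ a)) = χ a
    rw [← MulAut.mul_apply, inv_mul_cancel]; rfl
  right_inv χ := by
    ext a
    show χ (γ ((γ⁻¹ : MulAut L) a)) = χ a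
    rw [← MulAut.mul_apply, mul_inv_cancel]; rfl

theorem twistChar_apply (χ : L →* K) (a : L) : twistChar γ χ a = χ ((γ⁻¹ : MulAut L) a) := rfl

theorem g_mem_wt (hg : ∀ a, g * ψ a = ψ (γ a) * g) {χ : L →* K} {u : 𝓜} (hu : u ∈ wt ψ χ) :
    g u ∈ wt ψ (twistChar γ χ) := by
  intro a
  have h1 : γ ((γ⁻¹ : MulAut L) a) = a := by
    rw [← MulAut.mul_apply, mul_inv_cancel]; rfl
  have h2 := congrArg (fun z : End K 𝓜 => z u) (hg ((γ⁻¹ : MulAut L) a))
  simp only [Module.End.mul_apply, h1, hu _, map_smul] at h2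
  rw [← h2]
  rfl

theorem gpow_mem_wt (hg : ∀ a, g * ψ a = ψ (γ a) * g) (j : ℕ) {χ : L →* K} {u : 𝓜} (hu : u ∈ wt ψ χ) :
    (g ^ j) u ∈ wt ψ ((twistChar γ ^ j) χ) := by
  induction j with
  | zero => simpa using hu
  | succ j ih =>
    rw [pow_succ', pow_succ']
    exact g_mem_wt hg ih

theorem g_prj (hg : ∀ a, g * ψ a = ψ (γ a) * g) (χ : L →* K) :
    g * prj ψ χ = prj ψ (twistChar γ χ) * g := by
  unfold prj
  rw [Finset.mul_sum, Finset.sum_mul, ← Equiv.sum_comp (γ : MulAut L).toEquiv
    (fun a => (twistChar γ χ a)⁻¹ • ψ a * g)]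
  refine Finset.sum_congr rfl fun a _ => ?_
  simp only [MulEquiv.toEquiv_eq_coe, EquivLike.coe_coe]
  rw [mul_smul_comm, smul_mul_assoc, hg, twistChar_apply, ← MulAut.mul_apply, inv_mul_cancel]
  rfl

theorem gpow_prj (hg : ∀ a, g * ψ a = ψ (γ a) * g) (j : ℕ) (χ : L →* K) :
    g ^ j * prj ψ χ = prj ψ ((twistChar γ ^ j) χ) * g ^ j := by
  induction j generalizing χ with
  | zero => simp
  | succ j ih =>
    rw [pow_succ g, mul_assoc, g_prj hg, ← mul_assoc, ih, mul_assoc, pow_succ (twistChar γ)]
    rfl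

end FC

section FC2

variable {K : Type u} [Field K] {𝓜 : Type*} [AddCommGroup 𝓜] [Module K 𝓜]
  {L : Type*} [CommGroup L] [Fintype L] {ψ : L →* End K 𝓜} {g : End K 𝓜} {γ : MulAut L}

theorem prj_comm (ψ : L →* End K 𝓜) (χ : L →* K) (b : L) : ψ b * prj ψ χ = prj ψ χ * ψ b := by
  unfold prj
  rw [Finset.mul_sum, Finset.sum_mul]
  refine Finset.sum_congr rfl fun a _ => ?_
  rw [mul_smul_comm, smul_mul_assoc, ← map_mul, ← map_mul, mul_comm]

variable [FiniteDimensional K 𝓜] [IsAlgClosed K]

theorem iInf_ker_prj (hL : (Fintype.card L : K) ≠ 0) (v : 𝓜) (hv : ∀ χ : L →* K, prj ψ χ v = 0) : v = 0 := by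
  by_contra hv0
  let E : Submodule K 𝓜 := ⨅ χ : L →* K, LinearMap.ker (prj ψ χ)
  have hvE : v ∈ E := Submodule.mem_iInf _ |>.mpr fun χ => LinearMap.mem_ker.mpr (hv χ)
  have hE : E ≠ ⊥ := by
    intro h
    rw [h] at hvE
    exact hv0 ((Submodule.mem_bot _).mp hvE)
  obtain ⟨χ, u, huE, hu0, hu⟩ := exists_common_eigen ψ E hE
    (by
      intro a u hu
      refine (Submodule.mem_iInf _).mpr fun χ => LinearMap.mem_ker.mpr ?_
      have h1 := congrArg (fun z : End K 𝓜 => z u) (prj_comm ψ χ a)
      simp only [Module.End.mul_apply] at h1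
      rw [← h1, LinearMap.mem_ker.mp ((Submodule.mem_iInf _).mp hu χ), map_zero])
    (by
      intro a b u _
      rw [← Module.End.mul_apply, ← Module.End.mul_apply, ← map_mul, ← map_mul, mul_comm])
  have h1 : prj ψ χ u = 0 := LinearMap.mem_ker.mp ((Submodule.mem_iInf _).mp huE χ)
  rw [prj_self ψ χ hu] at h1
  rcases smul_eq_zero.mp h1 with h2 | h2
  · exact hL h2
  · exact hu0 h2

/-- **The free count.** -/
theorem fc_bound {p : ℕ} (hp : p.Prime) (hL : (Fintype.card L : K) ≠ 0)
    (hg : ∀ a, g * ψ a = ψ (γ a) * g) (hgp : g ^ p = 1) (hγp : γ ^ p = 1)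
    (hfpf : ∀ a, γ a = a → a = 1) (hsum : ∑ a, ψ a = 0) :
    p * finrank K (LinearMap.ker (g - 1)) ≤ finrank K 𝓜 ∧
      (Nontrivial 𝓜 → ∑ j ∈ Finset.range p, g ^ j ≠ 0) := by
  classical
  haveI : Finite (L →* K) := finite_chars
  letI : Fintype (L →* K) := Fintype.ofFinite _
  set π : Equiv.Perm (L →* K) := twistChar γ with hπdef
  have hπp : π ^ p = 1 := by
    have h1 : ∀ (j : ℕ) (χ : L →* K) (a : L), (π ^ j) χ a = χ (((γ⁻¹ : MulAut L) ^ j) a) := by
      intro j
      induction j with
      | zero => intro χ a; rfl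
      | succ j ih =>
        intro χ a
        rw [pow_succ', Equiv.Perm.mul_apply, twistChar_apply, ih, pow_succ]
        rfl
    ext χ a
    rw [h1, inv_pow, hγp, inv_one]
    rfl
  have hwt0 : ∀ χ : L →* K, LinearMap.ker (LinearMap.id : 𝓜 →ₗ[K] 𝓜) = ⊥ := fun _ => LinearMap.ker_id
  -- no nonzero vector in the trivial weight
  have htriv : ∀ χ : L →* K, (∀ a, χ a = 1) → ∀ u ∈ wt ψ χ, u = 0 := by
    intro χ hχ u hu
    have h1 := congrArg (fun z : End K 𝓜 => z u) hsum
    simp only [LinearMap.sum_apply, LinearMap.zero_apply, hu _, hχ, one_smul, Finset.sum_const,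
      Finset.card_univ] at h1
    have h2 : (Fintype.card L : K) • u = 0 := by
      rw [Nat.cast_smul_eq_nsmul]; exact h1
    exact (smul_eq_zero.mp h2).resolve_left hL
  let S : Finset (L →* K) := Finset.univ.filter fun χ => wt ψ χ ≠ ⊥
  have hmemS : ∀ χ, χ ∈ S ↔ wt ψ χ ≠ ⊥ := fun χ => by simp [S]
  have hginj : Function.Injective g := by
    intro x y h
    have h1 : g ^ p = g ^ (p - 1) * g := by
      rw [← pow_succ, Nat.sub_add_cancel hp.pos]
    have h2 := congrArg (g ^ (p - 1)) h
    rw [← Module.End.mul_apply, ← Module.End.mul_apply, ← h1, hgp] at h2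
    exact h2
  have hSπ : ∀ χ ∈ S, π χ ∈ S := by
    intro χ hχ
    rw [hmemS] at hχ ⊢
    obtain ⟨u, hu, hu0⟩ := Submodule.exists_mem_ne_zero_of_ne_bot hχ
    intro hb
    have h1 : g u ∈ wt ψ (π χ) := g_mem_wt hg hu
    rw [hb] at h1
    exact hu0 (hginj (by rw [(Submodule.mem_bot _).mp h1, map_zero]))
  have hSfree : ∀ χ ∈ S, π χ ≠ χ := by
    intro χ hχ hfix
    rw [hmemS] at hχ
    obtain ⟨u, hu, hu0⟩ := Submodule.exists_mem_ne_zero_of_ne_bot hχ
    apply hu0
    refine htriv χ ?_ u hu
    intro a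
    obtain ⟨z, hz⟩ := exists_twist γ hfpf a
    have h1 : χ (γ z) = χ z := by
      have h2 : π χ (γ z) = χ (γ z) := by rw [hfix]
      rw [← h2, hπdef, twistChar_apply, ← MulAut.mul_apply, inv_mul_cancel]
      rfl
    rw [← hz, map_mul, map_inv, h1, mul_inv_cancel₀ (lam_ne_zero χ z)]
  obtain ⟨Ξ, hΞ1, hΞ2, hΞ3⟩ := exists_free_transversal π hp hπp _ S rfl hSπ hSfree
  let f : (L →* K) → ℕ := fun χ => finrank K (wt ψ χ)
  have hfle : ∀ χ, f χ ≤ f (π χ) := by
    intro χ
    let T : wt ψ χ →ₗ[K] wt ψ (π χ) :=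
      (g.comp (wt ψ χ).subtype).codRestrict _ (fun u => g_mem_wt hg u.2)
    have hT : Function.Injective T := by
      intro x y h
      apply Subtype.ext
      exact hginj (congrArg Subtype.val h)
    exact LinearMap.finrank_le_finrank_of_injective hT
  have hfpowle : ∀ (j : ℕ) χ, f χ ≤ f ((π ^ j) χ) := by
    intro j
    induction j with
    | zero => intro χ; exact le_rfl
    | succ j ih =>
      intro χ
      rw [pow_succ']
      exact (ih χ).trans (hfle _)
  have hf : ∀ χ, f (π χ) = f χ := by
    intro χ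
    refine le_antisymm ?_ (hfle χ)
    have h1 := hfpowle (p - 1) (π χ)
    have h2 : (π ^ (p - 1)) (π χ) = χ := by
      rw [← Equiv.Perm.mul_apply, ← pow_succ, Nat.sub_add_cancel hp.pos, hπp]
      rfl
    rwa [h2] at h1
  have hsumS := hΞ3 f hf
  -- the sum of the multiplicities
  have hdim : ∑ χ ∈ S, f χ ≤ finrank K 𝓜 := by
    let Φ : (∀ χ : S, wt ψ (χ : L →* K)) →ₗ[K] 𝓜 :=
      { toFun := fun u => ∑ χ, (u χ : 𝓜)
        map_add' := by
          intro u v
          simp [Finset.sum_add_distrib]
        map_smul' := by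
          intro c u
          simp [Finset.smul_sum] }
    have hΦ : Function.Injective Φ := by
      rw [injective_iff_map_eq_zero]
      intro u hu
      funext χ₀
      apply Subtype.ext
      have h1 : prj ψ (χ₀ : L →* K) (∑ χ, (u χ : 𝓜)) = 0 := by
        have : (∑ χ, (u χ : 𝓜)) = 0 := hu
        rw [this, map_zero]
      rw [map_sum, Finset.sum_eq_single χ₀] at h1
      · rw [prj_self ψ _ (u χ₀).2] at h1
        exact (smul_eq_zero.mp h1).resolve_left hL
      · intro χ _ hne
        exact prj_other ψ (fun h => hne (Subtype.ext h)) (u χ).2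
      · simp
    have h1 := LinearMap.finrank_le_finrank_of_injective hΦ
    rw [Module.finrank_pi_fintype] at h1
    rw [← Finset.sum_coe_sort]
    exact h1
  have hker : finrank K (LinearMap.ker (g - 1)) ≤ ∑ ξ ∈ Ξ, f ξ := by
    let Θ : LinearMap.ker (g - 1) →ₗ[K] (∀ ξ : Ξ, wt ψ (ξ : L →* K)) :=
      { toFun := fun v ξ => ⟨prj ψ (ξ : L →* K) v, prj_mem ψ _ _⟩
        map_add' := by
          intro u v
          funext ξ
          apply Subtype.ext
          simp
        map_smul' := by
          intro c u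
          funext ξ
          apply Subtype.ext
          simp }
    have hΘ : Function.Injective Θ := by
      rw [injective_iff_map_eq_zero]
      intro v hv
      have hv1 : g v = v := by
        have h := LinearMap.mem_ker.mp v.2
        rw [LinearMap.sub_apply, Module.End.one_apply, sub_eq_zero] at h
        exact h
      have hvj : ∀ j : ℕ, (g ^ j) (v : 𝓜) = v := by
        intro j
        induction j with
        | zero => rfl
        | succ j ih => rw [pow_succ, Module.End.mul_apply, hv1, ih]
      have hξ : ∀ ξ ∈ Ξ, prj ψ ξ (v : 𝓜) = 0 := by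
        intro ξ hξ
        have := congrFun hv ⟨ξ, hξ⟩
        exact congrArg Subtype.val this
      apply Subtype.ext
      refine iInf_ker_prj (ψ := ψ) hL _ ?_
      intro χ
      by_cases hχ : χ ∈ S
      · obtain ⟨ξ, hξm, j, rfl⟩ := hΞ2 χ hχ
        have h1 := congrArg (fun z : End K 𝓜 => z (v : 𝓜)) (gpow_prj hg j ξ)
        simp only [Module.End.mul_apply, hvj, hξ ξ hξm, map_zero] at h1
        exact h1.symm
      · have h1 : wt ψ χ = ⊥ := by
          by_contra h
          exact hχ ((hmemS χ).mpr h)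
        have h2 := prj_mem ψ χ (v : 𝓜)
        rw [h1] at h2
        exact (Submodule.mem_bot _).mp h2
    have h1 := LinearMap.finrank_le_finrank_of_injective hΘ
    rw [Module.finrank_pi_fintype] at h1
    rw [← Finset.sum_coe_sort]
    exact h1
  refine ⟨?_, ?_⟩
  · calc p * finrank K (LinearMap.ker (g - 1)) ≤ p * ∑ ξ ∈ Ξ, f ξ := Nat.mul_le_mul_left _ hker
      _ = ∑ χ ∈ S, f χ := hsumS.symm
      _ ≤ _ := hdim
  · intro hnt hnorm
    obtain ⟨χ, u, -, hu0, hu⟩ := exists_common_eigen ψ ⊤ (top_ne_bot)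
      (fun a u _ => Submodule.mem_top)
      (by
        intro a b u _
        rw [← Module.End.mul_apply, ← Module.End.mul_apply, ← map_mul, ← map_mul, mul_comm])
    have hχS : χ ∈ S := by
      rw [hmemS]
      intro hb
      rw [hb] at hu
      exact hu0 ((Submodule.mem_bot _).mp hu)
    have h1 : prj ψ χ (∑ j ∈ Finset.range p, (g ^ j) u) = 0 := by
      have := congrArg (fun z : End K 𝓜 => prj ψ χ (z u)) hnorm
      simpa using this
    rw [map_sum, Finset.sum_eq_single 0] at h1
    · rw [pow_zero, Module.End.one_apply, prj_self ψ χ hu] at h1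
      exact hu0 ((smul_eq_zero.mp h1).resolve_left hL)
    · intro j hj hj0
      refine prj_other ψ ?_ (gpow_mem_wt hg j hu)
      intro h
      have hjp : j < p := Finset.mem_range.mp hj
      -- a period
      have h1 : Function.IsPeriodicPt π j χ := by
        show π^[j] χ = χ
        rw [Equiv.Perm.iterate_eq_pow]; exact h
      have h2 : Function.IsPeriodicPt π p χ := by
        show π^[p] χ = χ
        rw [Equiv.Perm.iterate_eq_pow, hπp]; rfl
      have h3 : Function.minimalPeriod π χ ∣ p := h2.minimalPeriod_dvd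
      rcases (Nat.dvd_prime hp).mp h3 with h4 | h4
      · exact hSfree χ hχS (Function.minimalPeriod_eq_one_iff_isFixedPt.mp h4)
      · have h5 := h1.minimalPeriod_dvd
        rw [h4] at h5
        exact absurd (Nat.le_of_dvd (Nat.pos_of_ne_zero hj0) h5) (by omega)
    · intro h
      exact absurd (Finset.mem_range.mpr hp.pos) h

end FC2

/-- Fixed points lift through invariant sections. -/
theorem exists_fixed_mul' {P R : Type*} [Group P] [Finite P] [Group R] [Finite R] {p : ℕ} [Fact p.Prime]
    (hP : IsPGroup p P) (α : P →* MulAut R) (N : Subgroup R) (hNp : ¬ p ∣ Nat.card N)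
    (hN : ∀ x, ∀ n ∈ N, α x n ∈ N) (s : R) (hs : ∀ x, s⁻¹ * α x s ∈ N) :
    ∃ n ∈ N, ∀ x, α x (s * n) = s * n := by
  letI act : MulAction P N :=
    { smul := fun x n => ⟨s⁻¹ * α x (s * n), by
        have h1 : s⁻¹ * α x (s * n) = (s⁻¹ * α x s) * α x n := by rw [map_mul]; group
        rw [h1]
        exact N.mul_mem (hs x) (hN x n n.2)⟩
      one_smul := by
        intro n
        apply Subtype.ext
        show s⁻¹ * α 1 (s * n) = n
        rw [map_one]
        show s⁻¹ * (s * n) = n
        group
      mul_smul := by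
        intro x y n
        apply Subtype.ext
        show s⁻¹ * α (x * y) (s * n) = s⁻¹ * α x (s * (s⁻¹ * α y (s * n)))
        rw [mul_inv_cancel_left, map_mul α x y]
        rfl }
  obtain ⟨n, hn⟩ := hP.nonempty_fixed_point_of_prime_not_dvd_card N hNp
  refine ⟨n, n.2, fun x => ?_⟩
  have h1 := (MulAction.mem_fixedPoints.1 hn) x
  have h2 : s⁻¹ * α x (s * n) = n := congrArg Subtype.val h1
  rw [inv_mul_eq_iff_eq_mul] at h2
  exact h2

section Modular

/-- The free count over a prime field. -/
theorem fc_modular {r p : ℕ} [Fact r.Prime] {W L : Type*} [AddCommGroup W] [Module (ZMod r) W] [Finite W]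
    [CommGroup L] [Fintype L] (hp : p.Prime) (hL : Nat.Coprime (Fintype.card L) r)
    (ψ : L →* End (ZMod r) W) (g : End (ZMod r) W) (γ : MulAut L)
    (hg : ∀ a, g * ψ a = ψ (γ a) * g) (hgp : g ^ p = 1) (hγp : γ ^ p = 1)
    (hfpf : ∀ a, γ a = a → a = 1) (hsum : ∑ a, ψ a = 0) :
    p * finrank (ZMod r) (LinearMap.ker (g - 1)) ≤ finrank (ZMod r) W ∧
      (Nontrivial W → ∑ j ∈ Finset.range p, g ^ j ≠ 0) := by
  classical
  haveI : Module.Finite (ZMod r) W := Module.Finite.of_finite
  let K := AlgebraicClosure (ZMod r)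
  let bc : End (ZMod r) W →ₐ[ZMod r] End K (K ⊗[ZMod r] W) := Module.End.baseChangeHom (ZMod r) K W
  let ψ' : L →* End K (K ⊗[ZMod r] W) := (bc : End (ZMod r) W →* End K (K ⊗[ZMod r] W)).comp ψ
  let g' : End K (K ⊗[ZMod r] W) := bc g
  have hchar : ∀ m : ℕ, ((m : ℕ) : K) = 0 ↔ r ∣ m := by
    intro m
    haveI : CharP K r := charP_of_injective_algebraMap (algebraMap (ZMod r) K).injective r
    exact CharP.cast_eq_zero_iff K r m
  have hL' : (Fintype.card L : K) ≠ 0 := by
    rw [Ne, hchar]
    intro h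
    have hr : r.Prime := Fact.out
    exact hr.one_lt.ne' (Nat.Coprime.eq_one_of_dvd hL.symm h)
  have hg' : ∀ a, g' * ψ' a = ψ' (γ a) * g' := by
    intro a
    show bc g * bc (ψ a) = bc (ψ (γ a)) * bc g
    rw [← map_mul, ← map_mul, hg]
  have hgp' : g' ^ p = 1 := by
    show (bc g) ^ p = 1
    rw [← map_pow, hgp, map_one]
  have hsum' : ∑ a, ψ' a = 0 := by
    show ∑ a, bc (ψ a) = 0
    rw [← map_sum, hsum, map_zero]
  obtain ⟨h1, h2⟩ := fc_bound (K := K) (𝓜 := K ⊗[ZMod r] W) (ψ := ψ') (g := g') (γ := γ) hp hL' hg' hgp' hγp hfpf hsum'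
  refine ⟨?_, ?_⟩
  · refine le_trans (Nat.mul_le_mul_left _ ?_) (h1.trans_eq Module.finrank_baseChange)
    -- base change of the kernel
    let C := LinearMap.ker (g - 1)
    let i : K ⊗[ZMod r] C →ₗ[K] K ⊗[ZMod r] W := C.subtype.baseChange K
    have hi : Function.Injective i := by
      have : Function.Injective (C.subtype.lTensor K) :=
        Module.Flat.lTensor_preserves_injective_linearMap _ C.injective_subtype
      exact this
    have hmem : ∀ x, i x ∈ LinearMap.ker (g' - 1) := by
      intro x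
      rw [LinearMap.mem_ker]
      have h3 : g' - 1 = (g - 1).baseChange K := by
        show bc g - 1 = bc (g - 1)
        rw [map_sub, map_one]
      rw [h3]
      show ((g - 1).baseChange K) (C.subtype.baseChange K x) = 0
      rw [← LinearMap.comp_apply, ← LinearMap.baseChange_comp]
      have h4 : (g - 1) ∘ₗ C.subtype = 0 := by
        ext v
        exact LinearMap.mem_ker.mp v.2
      rw [h4, LinearMap.baseChange_zero]
      rfl
    let i' : K ⊗[ZMod r] C →ₗ[K] LinearMap.ker (g' - 1) := i.codRestrict _ hmem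
    have hi' : Function.Injective i' := by
      intro x y h
      exact hi (congrArg Subtype.val h)
    have h5 := LinearMap.finrank_le_finrank_of_injective hi'
    rwa [Module.finrank_baseChange] at h5
  · intro hnt hnorm
    have hnt' : Nontrivial (K ⊗[ZMod r] W) := by
      apply Module.nontrivial_of_finrank_pos (R := K)
      rw [Module.finrank_baseChange]
      exact Module.finrank_pos
    apply h2 hnt'
    show ∑ j ∈ Finset.range p, (bc g) ^ j = 0
    have h3 : ∑ j ∈ Finset.range p, (bc g) ^ j = bc (∑ j ∈ Finset.range p, g ^ j) := by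
      rw [map_sum]
      refine Finset.sum_congr rfl fun j _ => ?_
      rw [map_pow]
    rw [h3, hnorm, map_zero]

end Modular

section Pairing

/-- A biadditive pairing with nonzero values in a field. -/
structure SymP (T K₀ : Type*) [AddCommGroup T] [Field K₀] where
  f : T → T → K₀
  ne : ∀ s t, f s t ≠ 0
  addl : ∀ s s' t, f (s + s') t = f s t * f s' t
  addr : ∀ s t t', f s (t + t') = f s t * f s t'

namespace SymP

variable {T K₀ : Type*} [AddCommGroup T] [Field K₀] (P : SymP T K₀)

theorem zero_r (s : T) : P.f s 0 = 1 := by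
  have h := P.addr s 0 0
  rw [add_zero] at h
  have h2 : P.f s 0 * (P.f s 0 - 1) = 0 := by
    rw [mul_sub, mul_one, ← h, sub_self]
  rcases mul_eq_zero.mp h2 with h3 | h3
  · exact absurd h3 (P.ne _ _)
  · exact sub_eq_zero.mp h3

theorem zero_l (s : T) : P.f 0 s = 1 := by
  have h := P.addl 0 0 s
  rw [add_zero] at h
  have h2 : P.f 0 s * (P.f 0 s - 1) = 0 := by
    rw [mul_sub, mul_one, ← h, sub_self]
  rcases mul_eq_zero.mp h2 with h3 | h3
  · exact absurd h3 (P.ne _ _)
  · exact sub_eq_zero.mp h3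

theorem nsmul_r (s t : T) (n : ℕ) : P.f s (n • t) = P.f s t ^ n := by
  induction n with
  | zero => simp [P.zero_r]
  | succ n ih => rw [succ_nsmul, P.addr, ih, pow_succ]

theorem nsmul_l (s t : T) (n : ℕ) : P.f (n • s) t = P.f s t ^ n := by
  induction n with
  | zero => simp [P.zero_l]
  | succ n ih => rw [succ_nsmul, P.addl, ih, pow_succ]

theorem neg_r (s t : T) : P.f s (-t) = (P.f s t)⁻¹ := by
  have h := P.addr s t (-t)
  rw [add_neg_cancel, P.zero_r] at h
  exact eq_inv_of_mul_eq_one_right h.symm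

theorem neg_l (s t : T) : P.f (-s) t = (P.f s t)⁻¹ := by
  have h := P.addl s (-s) t
  rw [add_neg_cancel, P.zero_l] at h
  exact eq_inv_of_mul_eq_one_right h.symm

theorem sub_r (s t t' : T) : P.f s (t - t') = P.f s t * (P.f s t')⁻¹ := by
  rw [sub_eq_add_neg, P.addr, P.neg_r]

theorem sub_l (s s' t : T) : P.f (s - s') t = P.f s t * (P.f s' t)⁻¹ := by
  rw [sub_eq_add_neg, P.addl, P.neg_l]

theorem sum_r {ι : Type*} (S : Finset ι) (s : T) (F : ι → T) :
    P.f s (∑ i ∈ S, F i) = ∏ i ∈ S, P.f s (F i) := by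
  classical
  induction S using Finset.induction_on with
  | empty => simp [P.zero_r]
  | insert a S ha ih => rw [Finset.sum_insert ha, Finset.prod_insert ha, P.addr, ih]

theorem sum_l {ι : Type*} (S : Finset ι) (F : ι → T) (t : T) :
    P.f (∑ i ∈ S, F i) t = ∏ i ∈ S, P.f (F i) t := by
  classical
  induction S using Finset.induction_on with
  | empty => simp [P.zero_l]
  | insert a S ha ih => rw [Finset.sum_insert ha, Finset.prod_insert ha, P.addl, ih]

end SymP

theorem eq_one_of_pow_of_pow {K₀ : Type*} [Monoid K₀] {x : K₀} {a b : ℕ} (hab : Nat.Coprime a b)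
    (h1 : x ^ a = 1) (h2 : x ^ b = 1) : x = 1 := by
  have h3 := orderOf_dvd_of_pow_eq_one h1
  have h4 := orderOf_dvd_of_pow_eq_one h2
  exact orderOf_eq_one_iff.mp (Nat.eq_one_of_dvd_coprimes hab h3 h4)

/-- **The lower bound for a Frobenius action on a symplectic space.** -/
theorem sym_free_bound {r p : ℕ} [Fact r.Prime] {T K₀ L : Type*} [AddCommGroup T] [Module (ZMod r) T] [Finite T]
    [Field K₀] [CommGroup L] [Fintype L] [Nontrivial L] (hp : p.Prime) (hpr : p ≠ r)
    (P : SymP T K₀) (hnd : ∀ s, (∀ t, P.f s t = 1) → s = 0)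
    (hSq : ∀ S : Submodule (ZMod r) T, (∀ s ∈ S, (∀ t ∈ S, P.f s t = 1) → s = 0) → ∃ n, Nat.card S = n ^ 2)
    (hL : Nat.Coprime (Fintype.card L) r)
    (ψ : L →* End (ZMod r) T) (hψ : Function.Injective ψ) (g : End (ZMod r) T) (γ : MulAut L)
    (hg : ∀ a, g * ψ a = ψ (γ a) * g) (hgp : g ^ p = 1) (hγp : γ ^ p = 1)
    (hfpf : ∀ a, γ a = a → a = 1)
    (hgP : ∀ s t, P.f (g s) (g t) = P.f s t) (hψP : ∀ a s t, P.f (ψ a s) (ψ a t) = P.f s t) :
    2 * (p - 1) ≤ finrank (ZMod r) (LinearMap.range (g - 1)) := by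
  classical
  have hr : r.Prime := Fact.out
  haveI : Module.Finite (ZMod r) T := Module.Finite.of_finite
  set n := Fintype.card L with hn
  have hrT : ∀ t : T, r • t = 0 := by
    intro t
    have h := (ZMod.natCast_self r) ▸ (Nat.cast_smul_eq_nsmul (ZMod r) r t)
    rw [← h, zero_smul]
  have hcoprt : ∀ (c : ℕ), Nat.Coprime c r → ∀ x y : K₀, False ∨ True := fun _ _ _ _ => Or.inr trivial
  -- the averaging operator
  let e : End (ZMod r) T := ∑ a, ψ a
  have heψ : ∀ b, e * ψ b = e := by
    intro b
    show (∑ a, ψ a) * ψ b = ∑ a, ψ a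
    rw [Finset.sum_mul]
    simp_rw [← map_mul]
    exact Equiv.sum_comp (Equiv.mulRight b) (fun a => ψ a)
  have hψe : ∀ b, ψ b * e = e := by
    intro b
    show ψ b * (∑ a, ψ a) = ∑ a, ψ a
    rw [Finset.mul_sum]
    simp_rw [← map_mul]
    exact Equiv.sum_comp (Equiv.mulLeft b) (fun a => ψ a)
  have hee : e * e = n • e := by
    show e * (∑ a, ψ a) = _
    rw [Finset.mul_sum]
    simp only [heψ]
    simp [hn]
  have hge : g * e = e * g := by
    show g * (∑ a, ψ a) = (∑ a, ψ a) * g
    rw [Finset.mul_sum, Finset.sum_mul]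
    simp_rw [hg]
    exact Equiv.sum_comp (γ : MulAut L).toEquiv (fun a => ψ a * g)
  -- the module `W`
  let M : Submodule (ZMod r) T := LinearMap.ker e
  have hMg : ∀ m ∈ M, g m ∈ M := by
    intro m hm
    rw [LinearMap.mem_ker] at hm ⊢
    have := congrArg (fun z : End (ZMod r) T => z m) hge
    simp only [Module.End.mul_apply, hm, map_zero] at this
    exact this.symm
  have hMψ : ∀ a, ∀ m ∈ M, ψ a m ∈ M := by
    intro a m hm
    rw [LinearMap.mem_ker] at hm ⊢
    have := congrArg (fun z : End (ZMod r) T => z m) (heψ a)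
    simp only [Module.End.mul_apply, hm] at this
    exact this
  -- `n` is invertible on `T`
  have hnu : ∀ t : T, n • t = 0 → t = 0 := by
    intro t ht
    obtain ⟨u, v, huv⟩ : ∃ u v : ℤ, (n : ℤ) * u + (r : ℤ) * v = 1 := by
      have := Nat.Coprime.isCoprime hL
      obtain ⟨a, b, hab⟩ := this
      exact ⟨a, b, by rw [← hab]; ring⟩
    have h1 : ((n : ℤ) * u + (r : ℤ) * v) • t = t := by rw [huv, one_smul]
    rw [add_smul, mul_comm (n : ℤ), mul_smul, mul_comm (r : ℤ), mul_smul] at h1
    simp only [natCast_zsmul, ht, hrT, smul_zero, add_zero] at h1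
    exact h1.symm
  have hMnt : M ≠ ⊥ := by
    intro hb
    obtain ⟨a, ha⟩ := exists_ne (1 : L)
    have hψa : ψ a ≠ 1 := fun h => ha (hψ (by rw [h, map_one]))
    apply hψa
    ext v
    have h1 : n • v - e v ∈ M := by
      rw [LinearMap.mem_ker, map_sub, map_nsmul]
      have := congrArg (fun z : End (ZMod r) T => z v) hee
      simp only [Module.End.mul_apply, LinearMap.smul_apply] at this
      rw [this, sub_self]
    rw [hb, Submodule.mem_bot, sub_eq_zero] at h1
    have h2 := congrArg (fun z : End (ZMod r) T => z v) (hψe a)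
    simp only [Module.End.mul_apply] at h2
    rw [← h1, map_nsmul] at h2
    have h3 : n • (ψ a v - v) = 0 := by
      rw [smul_sub, h2, sub_self]
    rw [Module.End.one_apply]
    exact sub_eq_zero.mp (hnu _ h3)
  haveI hMnt' : Nontrivial M := Submodule.nontrivial_iff_ne_bot.mpr hMnt
  let ψW : L →* End (ZMod r) M := restrictRep ψ M hMψ
  let gW : End (ZMod r) M := g.restrict hMg
  have hgW : ∀ a, gW * ψW a = ψW (γ a) * gW := by
    intro a
    ext v
    have := congrArg (fun z : End (ZMod r) T => z (v : T)) (hg a)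
    exact this
  have hgWj : ∀ (j : ℕ) (v : M), ((gW ^ j) v : T) = (g ^ j) v := fun j v => restrict_pow_coe g M hMg j v
  have hgWp : gW ^ p = 1 := by
    ext v
    rw [hgWj, hgp]; rfl
  have hsumW : ∑ a, ψW a = 0 := by
    ext v
    have h1 : e (v : T) = 0 := LinearMap.mem_ker.mp v.2
    rw [LinearMap.sum_apply, AddSubmonoidClass.coe_finsetSum]
    have h2 : e (v : T) = ∑ a, ψ a (v : T) := by
      show (∑ a, ψ a) (v : T) = _
      rw [LinearMap.sum_apply]
    rw [h2] at h1
    exact h1
  obtain ⟨hfc1, hfc2⟩ := fc_modular hp hL ψW gW γ hgW hgWp hγp hfpf hsumW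
  set C : Submodule (ZMod r) M := LinearMap.ker (gW - 1) with hC
  set d := finrank (ZMod r) C with hd
  -- `C` is nonzero
  have hmemC : ∀ v : M, v ∈ C ↔ g v = v := by
    intro v
    rw [hC, LinearMap.mem_ker, LinearMap.sub_apply, Module.End.one_apply, sub_eq_zero]
    constructor
    · intro h
      exact congrArg Subtype.val h
    · intro h
      exact Subtype.ext h
  have hCne : C ≠ ⊥ := by
    intro hb
    apply hfc2 hMnt'
    ext v
    have h1 : (∑ j ∈ Finset.range p, (gW ^ j)) v ∈ C := by
      rw [hmemC]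
      rw [LinearMap.sum_apply, AddSubmonoidClass.coe_finsetSum, map_sum]
      have h2 := Finset.sum_range_succ (fun j => (g ^ j) (v : T)) p
      have h3 := Finset.sum_range_succ' (fun j => (g ^ j) (v : T)) p
      simp only [hgp, pow_zero, Module.End.one_apply] at h2 h3
      rw [h2] at h3
      have h4 := add_right_cancel h3
      have h5 : ∀ j, g ((g ^ j) (v : T)) = (g ^ (j + 1)) v := by
        intro j
        rw [pow_succ']; rfl
      simp only [hgWj, h5]
      exact h4.symm
    rw [hb, Submodule.mem_bot] at h1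
    rw [h1]
    rfl
  have hd0 : d ≠ 0 := by
    intro h0
    exact hCne (Submodule.finrank_eq_zero.mp h0)
  -- the image of `C` in `T`
  let S : Submodule (ZMod r) T := C.map M.subtype
  have hmemS : ∀ s, s ∈ S ↔ s ∈ M ∧ g s = s := by
    intro s
    constructor
    · rintro ⟨v, hv, rfl⟩
      exact ⟨v.2, (hmemC v).mp hv⟩
    · rintro ⟨h1, h2⟩
      exact ⟨⟨s, h1⟩, (hmemC _).mpr h2, rfl⟩
  have hScard : Nat.card S = Nat.card C := by
    refine Nat.card_congr ?_
    exact (Submodule.equivMapOfInjective M.subtype M.injective_subtype C).toEquiv.symm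
  -- a root of unity argument
  have hpow_r : ∀ s t : T, P.f s t ^ r = 1 := by
    intro s t
    rw [← P.nsmul_r, hrT, P.zero_r]
  have hgjP : ∀ (j : ℕ) (s t : T), g s = s → P.f s ((g ^ j) t) = P.f s t := by
    intro j s t hs
    induction j with
    | zero => rfl
    | succ j ih =>
      rw [pow_succ', Module.End.mul_apply]
      have := hgP s ((g ^ j) t)
      rw [hs] at this
      rw [this, ih]
  have hSnd : ∀ s ∈ S, (∀ t ∈ S, P.f s t = 1) → s = 0 := by
    intro s hs hperp
    obtain ⟨hs1, hs2⟩ := (hmemS s).mp hs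
    have hse : e s = 0 := LinearMap.mem_ker.mp hs1
    -- orthogonal to the image of `e`
    have he : ∀ t, P.f s (e t) = 1 := by
      intro t
      have h1 : e t = ∑ a, ψ a t := by
        show (∑ a, ψ a) t = _
        rw [LinearMap.sum_apply]
      have h2 : ∀ a, P.f s (ψ a t) = P.f (ψ a⁻¹ s) t := by
        intro a
        rw [← hψP a (ψ a⁻¹ s) t, ← Module.End.mul_apply, ← map_mul, mul_inv_cancel, map_one]
        rfl
      rw [h1, P.sum_r]
      simp only [h2]
      rw [← P.sum_l]
      have h3 : ∑ a, ψ a⁻¹ s = e s := by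
        show _ = (∑ a, ψ a) s
        rw [LinearMap.sum_apply]
        exact Equiv.sum_comp (Equiv.inv L) (fun a => ψ a s)
      rw [h3, hse, P.zero_l]
    -- orthogonal to `M`
    have hm : ∀ m ∈ M, P.f s m = 1 := by
      intro m hm
      have hN : ∑ j ∈ Finset.range p, (g ^ j) m ∈ S := by
        rw [hmemS]
        refine ⟨?_, ?_⟩
        · refine Submodule.sum_mem _ fun j _ => ?_
          have hgjM : ∀ (j : ℕ) (v : T), v ∈ M → (g ^ j) v ∈ M := by
            intro j
            induction j with
            | zero => intro v hv; exact hv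
            | succ j ih =>
              intro v hv
              rw [pow_succ']
              exact hMg _ (ih v hv)
          exact hgjM j m hm
        · rw [map_sum]
          have h2 := Finset.sum_range_succ (fun j => (g ^ j) m) p
          have h3 := Finset.sum_range_succ' (fun j => (g ^ j) m) p
          simp only [hgp, pow_zero, Module.End.one_apply] at h2 h3
          rw [h2] at h3
          have h4 := add_right_cancel h3
          have h5 : ∀ j, g ((g ^ j) m) = (g ^ (j + 1)) m := by
            intro j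
            rw [pow_succ']; rfl
          simp only [h5]
          exact h4.symm
      have h1 := hperp _ hN
      rw [P.sum_r] at h1
      simp only [hgjP _ s m hs2, Finset.prod_const, Finset.card_range] at h1
      exact eq_one_of_pow_of_pow ((Nat.coprime_primes hp hr).mpr hpr) h1 (hpow_r s m)
    apply hnd
    intro t
    have hM1 : n • t - e t ∈ M := by
      rw [LinearMap.mem_ker, map_sub, map_nsmul]
      have := congrArg (fun z : End (ZMod r) T => z t) hee
      simp only [Module.End.mul_apply, LinearMap.smul_apply] at this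
      rw [this, sub_self]
    have h2 := hm _ hM1
    rw [P.sub_r, he t, inv_one, mul_one, P.nsmul_r] at h2
    exact eq_one_of_pow_of_pow hL h2 (hpow_r s t)
  obtain ⟨n₀, hn₀⟩ := hSq S hSnd
  -- `d` is even
  have hCcard : Nat.card C = r ^ d := by
    rw [Module.natCard_eq_pow_finrank (K := ZMod r), Nat.card_zmod]
  have hdeven : 2 ∣ d := by
    have h1 : r ^ d = n₀ ^ 2 := by rw [← hCcard, ← hScard, hn₀]
    have h2 := congrArg (fun m => m.factorization r) h1
    simp only [Nat.factorization_pow, Finsupp.smul_apply, hr.factorization_self, smul_eq_mul, mul_one] at h2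
    rw [h2]
    exact Dvd.intro _ rfl
  have hd2 : 2 ≤ d := by
    have := Nat.le_of_dvd (Nat.pos_of_ne_zero hd0) hdeven
    exact this
  -- rank-nullity
  have hrn := LinearMap.finrank_range_add_finrank_ker (gW - 1)
  have hle : finrank (ZMod r) (LinearMap.range (gW - 1)) ≤ finrank (ZMod r) (LinearMap.range (g - 1)) := by
    let j : LinearMap.range (gW - 1) →ₗ[ZMod r] LinearMap.range (g - 1) :=
      (M.subtype ∘ₗ (LinearMap.range (gW - 1)).subtype).codRestrict _ (by
        rintro ⟨_, v, rfl⟩
        refine ⟨v, ?_⟩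
        rfl)
    have hj : Function.Injective j := by
      intro x y h
      apply Subtype.ext
      apply Subtype.ext
      have h6 := congrArg Subtype.val h
      exact h6
    exact LinearMap.finrank_le_finrank_of_injective hj
  have hp1 : 1 ≤ p := hp.pos
  have h3 : finrank (ZMod r) M = finrank (ZMod r) (LinearMap.range (gW - 1)) + d := by
    rw [← hrn]
  have h4 : (p - 1) * d + d = p * d := by
    conv_rhs => rw [← Nat.sub_add_cancel hp1]
    ring
  have hfc1' : p * d ≤ finrank (ZMod r) M := hfc1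
  have h5 : (p - 1) * d ≤ finrank (ZMod r) (LinearMap.range (gW - 1)) := by omega
  calc 2 * (p - 1) = (p - 1) * 2 := by ring
    _ ≤ (p - 1) * d := Nat.mul_le_mul_left _ hd2
    _ ≤ _ := h5.trans hle

/-- Arithmetic of powers of two modulo `2 ^ k + 1`. -/
theorem two_pow_modEq {k j : ℕ} (hj1 : 1 ≤ j) (hj2 : j ≤ 2 * k) (h : 2 ^ k + 1 ∣ 2 ^ j - 1) : j = 2 * k := by
  by_contra hne
  have hj3 : j < 2 * k := by omega
  have hpos : 0 < 2 ^ j - 1 := by
    have : 2 ^ 1 ≤ 2 ^ j := Nat.pow_le_pow_right (by norm_num) hj1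
    omega
  by_cases hjk : j ≤ k
  · have h1 := Nat.le_of_dvd hpos h
    have h2 : 2 ^ j ≤ 2 ^ k := Nat.pow_le_pow_right (by norm_num) hjk
    omega
  · obtain ⟨i, rfl⟩ : ∃ i, j = k + i := ⟨j - k, by omega⟩
    have hik : i < k := by omega
    have hi : 0 < i := by omega
    have h1 : 2 ^ k + 1 ∣ 2 ^ (k + i) + 2 ^ i := ⟨2 ^ i, by rw [pow_add]; ring⟩
    have h2 : 2 ^ k + 1 ∣ (2 ^ (k + i) + 2 ^ i) - (2 ^ (k + i) - 1) := Nat.dvd_sub h1 h
    have hpos2 : 0 < 2 ^ (k + i) := by positivity
    have hpos3 : 0 < 2 ^ i := by positivity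
    have h3 : (2 ^ (k + i) + 2 ^ i) - (2 ^ (k + i) - 1) = 2 ^ i + 1 := by omega
    rw [h3] at h2
    have h4 := Nat.le_of_dvd (by positivity) h2
    have h5 : 2 ^ i < 2 ^ k := Nat.pow_lt_pow_right (by norm_num) hik
    omega

/-- **The isometries commuting with `g`**: with `|[T, g]| = 2 ^ (2 k)` and `g` of order `2 ^ k + 1`. -/
theorem sym_two_frobenius {T K₀ : Type*} [AddCommGroup T] [Module (ZMod 2) T] [Finite T] [Field K₀]
    (P : SymP T K₀) (hnd : ∀ s, (∀ t, P.f s t = 1) → s = 0) (hanti : ∀ s t, P.f t s = (P.f s t)⁻¹)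
    {k : ℕ} (hk : 1 ≤ k) (hp : (2 ^ k + 1).Prime)
    (g y : End (ZMod 2) T) (hgp : g ^ (2 ^ k + 1) = 1) (hcomm : y * g = g * y)
    (hgP : ∀ s t, P.f (g s) (g t) = P.f s t) (hyP : ∀ s t, P.f (y s) (y t) = P.f s t)
    (hyC : ∀ t, g t = t → y t = t)
    (hM : Nat.card (LinearMap.range (g - 1)) = 2 ^ (2 * k)) : y ^ (2 ^ k + 1) = 1 := by
  classical
  haveI : Fact (2 ^ k + 1).Prime := ⟨hp⟩
  haveI : Module.Finite (ZMod 2) T := Module.Finite.of_finite
  have h2T : ∀ t : T, 2 • t = 0 := by
    intro t
    have h := (ZMod.natCast_self 2) ▸ (Nat.cast_smul_eq_nsmul (ZMod 2) 2 t)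
    rw [← h, zero_smul]
  have hneg : ∀ t : T, -t = t := by
    intro t
    have h := h2T t
    rw [two_nsmul] at h
    exact neg_eq_of_add_eq_zero_left h
  have h2kT : ∀ t : T, 2 ^ k • t = 0 := by
    intro t
    obtain ⟨i, hi⟩ : ∃ i, k = i + 1 := ⟨k - 1, by omega⟩
    rw [hi, pow_succ', mul_smul, h2T]
  have hpT : ∀ t : T, (2 ^ k + 1) • t = t := by
    intro t
    rw [add_smul, h2kT, zero_add, one_smul]
  set p := 2 ^ k + 1 with hpdef
  set M : Submodule (ZMod 2) T := LinearMap.range (g - 1) with hMdef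
  have hmemM : ∀ m, m ∈ M ↔ ∃ t, g t - t = m := by
    intro m
    rw [hMdef, LinearMap.mem_range]
    simp [LinearMap.sub_apply]
  have hMg : ∀ m ∈ M, g m ∈ M := by
    intro m hm
    obtain ⟨t, rfl⟩ := (hmemM m).mp hm
    exact (hmemM _).mpr ⟨g t, by rw [map_sub]⟩
  have hMy : ∀ m ∈ M, y m ∈ M := by
    intro m hm
    obtain ⟨t, rfl⟩ := (hmemM m).mp hm
    refine (hmemM _).mpr ⟨y t, ?_⟩
    have h1 := congrArg (fun z : End (ZMod 2) T => z t) hcomm
    simp only [Module.End.mul_apply] at h1
    rw [map_sub, h1]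
  -- `M` meets the fixed points trivially
  have hMC : ∀ m ∈ M, g m = m → m = 0 := by
    intro m hm hfix
    obtain ⟨t, rfl⟩ := (hmemM m).mp hm
    have h1 : ∀ j : ℕ, (g ^ j) t = t + j • (g t - t) := by
      intro j
      induction j with
      | zero => simp
      | succ j ih =>
        rw [pow_succ', Module.End.mul_apply, ih, map_add, map_nsmul, hfix, succ_nsmul]
        abel
    have h2 := h1 p
    rw [hgp, Module.End.one_apply] at h2
    have h3 : p • (g t - t) = 0 := by
      have h4 := add_eq_left.mp h2.symm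
      exact h4
    rw [hpT] at h3
    exact h3
  -- polynomial operators
  let A : Polynomial (ZMod 2) →ₐ[ZMod 2] End (ZMod 2) T := Polynomial.aeval g
  have hAM : ∀ (a : Polynomial (ZMod 2)), ∀ m ∈ M, A a m ∈ M := by
    intro a m hm
    induction a using Polynomial.induction_on' with
    | add a b ha hb =>
      rw [map_add, LinearMap.add_apply]
      exact M.add_mem ha hb
    | monomial n c =>
      have h1 : A (Polynomial.monomial n c) = c • g ^ n := by
        show Polynomial.aeval g (Polynomial.monomial n c) = _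
        rw [Polynomial.aeval_monomial, Algebra.algebraMap_eq_smul_one, smul_mul_assoc, one_mul]
      rw [h1, LinearMap.smul_apply]
      refine M.smul_mem _ ?_
      induction n with
      | zero => simpa using hm
      | succ n ih =>
        rw [pow_succ', Module.End.mul_apply]
        exact hMg _ (ih (by
          show Polynomial.aeval g (Polynomial.monomial n c) = _
          rw [Polynomial.aeval_monomial, Algebra.algebraMap_eq_smul_one, smul_mul_assoc, one_mul]))
  have hAcomm : ∀ (a b : Polynomial (ZMod 2)), A a * A b = A b * A a := by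
    intro a b
    rw [← map_mul, ← map_mul, mul_comm]
  have hyA : ∀ (a : Polynomial (ZMod 2)), y * A a = A a * y := by
    intro a
    induction a using Polynomial.induction_on' with
    | add a b ha hb => rw [map_add, mul_add, add_mul, ha, hb]
    | monomial n c =>
      have h1 : A (Polynomial.monomial n c) = c • g ^ n := by
        show Polynomial.aeval g (Polynomial.monomial n c) = _
        rw [Polynomial.aeval_monomial, Algebra.algebraMap_eq_smul_one, smul_mul_assoc, one_mul]
      rw [h1, mul_smul_comm, smul_mul_assoc]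
      congr 1
      exact (Commute.pow_right hcomm n).eq
  -- a cyclic vector
  have hMcard2 : 2 ≤ Nat.card M := by
    rw [hM]
    calc 2 = 2 ^ 1 := rfl
      _ ≤ 2 ^ (2 * k) := Nat.pow_le_pow_right (by norm_num) (by omega)
  haveI hMnt : Nontrivial M := by
    apply (Finite.one_lt_card_iff_nontrivial).mp
    omega
  obtain ⟨x', hx'⟩ := exists_ne (0 : M)
  obtain ⟨x, hx⟩ : ∃ x : T, x = x' := ⟨_, rfl⟩
  have hxM : x ∈ M := hx ▸ x'.2
  have hx0 : x ≠ 0 := by
    intro h
    apply hx'
    apply Subtype.ext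
    rw [← hx, h]; rfl
  let φ : Polynomial (ZMod 2) →ₗ[ZMod 2] T :=
    { toFun := fun a => A a x
      map_add' := by intro a b; rw [map_add]; rfl
      map_smul' := by intro c a; rw [map_smul]; rfl }
  let N : Submodule (ZMod 2) T := LinearMap.range φ
  have hNM : N ≤ M := by
    rintro _ ⟨a, rfl⟩
    exact hAM a x hxM
  have hAone : A 1 = 1 := map_one A
  have hxN : x ∈ N := ⟨1, by show A 1 x = x; rw [hAone]; rfl⟩
  have hNg : ∀ v ∈ N, g v ∈ N := by
    rintro _ ⟨a, rfl⟩
    refine ⟨Polynomial.X * a, ?_⟩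
    show A (Polynomial.X * a) x = g (A a x)
    have h1 : A Polynomial.X = g := Polynomial.aeval_X g
    rw [map_mul, h1]
    rfl
  -- the cardinality of `N`
  have hNeq : N = M := by
    let f : Function.End N := fun v => ⟨g v, hNg v v.2⟩
    have hfj : ∀ (j : ℕ) (v : N), ((f ^ j) v : T) = (g ^ j) v := by
      intro j v
      induction j with
      | zero => rfl
      | succ j ih =>
        rw [pow_succ', pow_succ']
        show g (((f ^ j) v : N) : T) = g ((g ^ j) (v : T))
        rw [ih]
    have hfp : f ^ (p ^ 1) = 1 := by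
      rw [pow_one]
      funext v
      apply Subtype.ext
      rw [hfj, hgp]
      rfl
    letI : Fintype N := Fintype.ofFinite _
    have hmod := Equiv.Perm.card_fixedPoints_modEq (f := f) (p := p) (n := 1) hfp
    rw [← Nat.card_eq_fintype_card, ← Nat.card_eq_fintype_card] at hmod
    have hfix : Function.fixedPoints f = {0} := by
      ext v
      simp only [Function.mem_fixedPoints, Set.mem_singleton_iff]
      constructor
      · intro h
        apply Subtype.ext
        exact hMC v (hNM v.2) (congrArg Subtype.val h)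
      · rintro rfl
        apply Subtype.ext
        show g 0 = 0
        exact map_zero g
    have hcardfix : Nat.card (Function.fixedPoints f) = 1 := by
      rw [hfix]
      simp
    rw [hcardfix] at hmod
    have hNcard : Nat.card N = 2 ^ finrank (ZMod 2) N := by
      rw [Module.natCard_eq_pow_finrank (K := ZMod 2), Nat.card_zmod]
    have hMcard : Nat.card M = 2 ^ finrank (ZMod 2) M := by
      rw [Module.natCard_eq_pow_finrank (K := ZMod 2), Nat.card_zmod]
    have hMfin : finrank (ZMod 2) M = 2 * k := by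
      have h1 : 2 ^ finrank (ZMod 2) M = 2 ^ (2 * k) := by rw [← hMcard, hM]
      exact Nat.pow_right_injective (le_refl 2) h1
    have hjle : finrank (ZMod 2) N ≤ 2 * k := by
      rw [← hMfin]
      exact Submodule.finrank_mono hNM
    have hj1 : 1 ≤ finrank (ZMod 2) N := by
      have hnt : Nontrivial N := Submodule.nontrivial_iff_ne_bot.mpr (by
        intro h
        rw [h] at hxN
        exact hx0 ((Submodule.mem_bot _).mp hxN))
      exact Module.finrank_pos
    rw [hNcard] at hmod
    have hdvd : p ∣ 2 ^ finrank (ZMod 2) N - 1 :=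
      (Nat.modEq_iff_dvd' (Nat.one_le_two_pow)).mp hmod.symm
    have hj := two_pow_modEq hj1 hjle hdvd
    exact Submodule.eq_of_le_of_finrank_eq hNM (by rw [hj, hMfin])
  -- `y` is a polynomial in `g` on `M`
  obtain ⟨a, ha⟩ : y x ∈ N := hNeq ▸ hMy x hxM
  have ha' : A a x = y x := ha
  have hyM : ∀ m ∈ M, y m = A a m := by
    intro m hm
    have hm' : m ∈ N := hNeq ▸ hm
    obtain ⟨b, rfl⟩ := hm'
    show y (A b x) = A a (A b x)
    rw [← Module.End.mul_apply, hyA, Module.End.mul_apply, ← ha', ← Module.End.mul_apply,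
      ← Module.End.mul_apply, hAcomm]
  have hyMj : ∀ (j : ℕ), ∀ m ∈ M, (y ^ j) m = (A a ^ j) m := by
    intro j
    induction j with
    | zero => intro m _; rfl
    | succ j ih =>
      intro m hm
      rw [pow_succ, pow_succ, Module.End.mul_apply, Module.End.mul_apply, hyM m hm,
        ih _ (hAM a m hm)]
  -- the Frobenius
  have hexp : ∀ (j : ℕ) (b : Polynomial (ZMod 2)), Polynomial.expand (ZMod 2) (2 ^ j) b = b ^ (2 ^ j) := by
    intro j b
    induction j generalizing b with
    | zero => simp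
    | succ j ih =>
      rw [pow_succ', Polynomial.expand_mul, ih, ZMod.expand_card, ← pow_mul, mul_comm]
  have hfrob : A a ^ (2 ^ k) = Polynomial.aeval (g ^ (2 ^ k)) a := by
    rw [← map_pow, ← hexp k a]
    exact Polynomial.expand_aeval _ _ _
  -- adjoints
  have hg1 : ∀ s t, P.f (g s) t = P.f s ((g ^ (2 ^ k)) t) := by
    intro s t
    rw [← hgP s, ← Module.End.mul_apply, ← pow_succ']
    rw [show (2 ^ k + 1) = p from rfl, hgp]
    rfl
  have hgn : ∀ (n : ℕ) (s t : T), P.f ((g ^ n) s) t = P.f s (((g ^ (2 ^ k)) ^ n) t) := by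
    intro n s t
    induction n generalizing s t with
    | zero => rfl
    | succ n ih =>
      rw [pow_succ', Module.End.mul_apply, hg1, ih, ← Module.End.mul_apply, ← pow_succ]
  have hadj : ∀ (b : Polynomial (ZMod 2)) (s t : T),
      P.f (A b s) t = P.f s (Polynomial.aeval (g ^ (2 ^ k)) b t) := by
    intro b s t
    induction b using Polynomial.induction_on' with
    | add b c hb hc =>
      rw [map_add, map_add, LinearMap.add_apply, LinearMap.add_apply, P.addl, P.addr, hb, hc]
    | monomial n c =>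
      have h1 : A (Polynomial.monomial n c) = c • g ^ n := by
        show Polynomial.aeval g (Polynomial.monomial n c) = _
        rw [Polynomial.aeval_monomial, Algebra.algebraMap_eq_smul_one, smul_mul_assoc, one_mul]
      have h2 : Polynomial.aeval (g ^ (2 ^ k)) (Polynomial.monomial n c) = c • (g ^ (2 ^ k)) ^ n := by
        rw [Polynomial.aeval_monomial, Algebra.algebraMap_eq_smul_one, smul_mul_assoc, one_mul]
      rw [h1, h2, LinearMap.smul_apply, LinearMap.smul_apply]
      have hc : ∀ c : ZMod 2, c = 0 ∨ c = 1 := by decide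
      rcases hc c with rfl | rfl
      · simp [P.zero_l, P.zero_r]
      · simp only [one_smul]
        exact hgn n s t
  -- the key identity
  have hkey : ∀ m ∈ M, ∀ w ∈ M, P.f m ((y ^ p) w) = P.f m w := by
    intro m hm w hw
    have hyw : y w ∈ M := hMy w hw
    have h1 : (y ^ p) w = (y ^ (2 ^ k)) (y w) := by
      rw [hpdef, pow_succ]; rfl
    rw [h1, hyMj _ _ hyw, hfrob, ← hadj, ← hyM m hm, hyP]
  -- orthogonality to fixed points
  have hMfix : ∀ m ∈ M, ∀ c, g c = c → P.f m c = 1 := by
    intro m hm c hc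
    obtain ⟨t, rfl⟩ := (hmemM m).mp hm
    rw [P.sub_l]
    have h1 := hgP t c
    rw [hc] at h1
    rw [h1, mul_inv_cancel₀ (P.ne _ _)]
  -- the decomposition of a vector
  have hNorm : ∀ t : T, g (∑ j ∈ Finset.range p, (g ^ j) t) = ∑ j ∈ Finset.range p, (g ^ j) t := by
    intro t
    rw [map_sum]
    have h2 := Finset.sum_range_succ (fun j => (g ^ j) t) p
    have h3 := Finset.sum_range_succ' (fun j => (g ^ j) t) p
    simp only [hgp, pow_zero, Module.End.one_apply] at h2 h3
    rw [h2] at h3
    have h4 := add_right_cancel h3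
    have h5 : ∀ j, g ((g ^ j) t) = (g ^ (j + 1)) t := by
      intro j
      rw [pow_succ']; rfl
    simp only [h5]
    exact h4.symm
  have hsubM : ∀ (j : ℕ) (t : T), (g ^ j) t - t ∈ M := by
    intro j t
    induction j with
    | zero => simp
    | succ j ih =>
      have h1 : (g ^ (j + 1)) t - t = g ((g ^ j) t - t) + (g t - t) := by
        rw [map_sub, pow_succ']
        show g ((g ^ j) t) - t = _
        abel
      rw [h1]
      exact M.add_mem (hMg _ ih) ((hmemM _).mpr ⟨t, rfl⟩)
  have hdecomp : ∀ t : T, t - ∑ j ∈ Finset.range p, (g ^ j) t ∈ M := by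
    intro t
    have h1 : t - ∑ j ∈ Finset.range p, (g ^ j) t = ∑ j ∈ Finset.range p, (t - (g ^ j) t) := by
      rw [Finset.sum_sub_distrib]
      simp only [Finset.sum_const, Finset.card_range]
      rw [hpT]
    rw [h1]
    refine M.sum_mem fun j _ => ?_
    have h2 := M.neg_mem (hsubM j t)
    rwa [neg_sub] at h2
  -- conclusion on `M`
  have hyp : ∀ w ∈ M, (y ^ p) w = w := by
    intro w hw
    have hypM : ∀ (j : ℕ), (y ^ j) w ∈ M := by
      intro j
      induction j with
      | zero => exact hw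
      | succ j ih =>
        rw [pow_succ']
        exact hMy _ ih
    have hz : (y ^ p) w - w ∈ M := M.sub_mem (hypM p) hw
    have hz0 : (y ^ p) w - w = 0 := by
      apply hnd
      intro t
      have h1 : t = (t - ∑ j ∈ Finset.range p, (g ^ j) t) + ∑ j ∈ Finset.range p, (g ^ j) t := by abel
      rw [h1, P.addr, hMfix _ hz _ (hNorm t), mul_one, hanti, P.sub_r, hkey _ (hdecomp t) w hw,
        mul_inv_cancel₀ (P.ne _ _), inv_one]
    exact sub_eq_zero.mp hz0
  ext t
  have hyc : ∀ (j : ℕ) (c : T), g c = c → (y ^ j) c = c := by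
    intro j c hc
    induction j with
    | zero => rfl
    | succ j ih => rw [pow_succ, Module.End.mul_apply, hyC c hc, ih]
  have h1 : t = (t - ∑ j ∈ Finset.range p, (g ^ j) t) + ∑ j ∈ Finset.range p, (g ^ j) t := by abel
  rw [Module.End.one_apply]
  conv_lhs => rw [h1]
  rw [map_add, hyp _ (hdecomp t), hyc _ _ (hNorm t)]
  abel

/-- Orbit representatives of a permutation of prime order. -/
theorem exists_orbit_reps {X : Type*} [Finite X] [DecidableEq X] (π : Equiv.Perm X) {p : ℕ} (hp : p.Prime)
    (hπ : π ^ p = 1) :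
    ∃ Ξ : Finset X, (∀ x, ∃ ξ ∈ Ξ, ∃ j : ℕ, (π ^ j) ξ = x) ∧
      p * Ξ.card = Nat.card X + (p - 1) * Nat.card {x // π x = x} := by
  classical
  letI := Fintype.ofFinite X
  let Fx : Finset X := Finset.univ.filter fun x => π x = x
  let S : Finset X := Finset.univ.filter fun x => π x ≠ x
  have hFS : Disjoint Fx S := by
    rw [Finset.disjoint_left]
    intro x hx hx'
    exact (Finset.mem_filter.mp hx').2 (Finset.mem_filter.mp hx).2
  obtain ⟨Ξ', hΞ1, hΞ2, hΞ3⟩ := exists_free_transversal π hp hπ _ S rfl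
    (by
      intro x hx
      refine Finset.mem_filter.mpr ⟨Finset.mem_univ _, fun h => ?_⟩
      exact (Finset.mem_filter.mp hx).2 (π.injective h))
    (fun x hx => (Finset.mem_filter.mp hx).2)
  have hdisj : Disjoint Fx Ξ' := Finset.disjoint_of_subset_right hΞ1 hFS
  refine ⟨Fx ∪ Ξ', ?_, ?_⟩
  · intro x
    by_cases hx : π x = x
    · exact ⟨x, Finset.mem_union_left _ (Finset.mem_filter.mpr ⟨Finset.mem_univ _, hx⟩), 0, rfl⟩
    · obtain ⟨ξ, hξ, j, hj⟩ := hΞ2 x (Finset.mem_filter.mpr ⟨Finset.mem_univ _, hx⟩)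
      exact ⟨ξ, Finset.mem_union_right _ hξ, j, hj⟩
  · have h1 := hΞ3 (fun _ => 1) (fun _ => rfl)
    simp only [Finset.sum_const, smul_eq_mul, mul_one] at h1
    have h2 : Nat.card X = Fx.card + S.card := by
      rw [Nat.card_eq_fintype_card, ← Finset.card_union_of_disjoint hFS, ← Finset.card_univ]
      congr 1
      ext x
      simp only [Finset.mem_univ, Finset.mem_union, Finset.mem_filter, true_and, true_iff, Fx, S]
      exact em _
    have h3 : Nat.card {x // π x = x} = Fx.card := by
      rw [Nat.card_eq_fintype_card, Fintype.card_subtype]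
    rw [Finset.card_union_of_disjoint hdisj, h3, h2, h1, mul_add]
    have h4 : p * Fx.card = Fx.card + (p - 1) * Fx.card := by
      conv_lhs => rw [← Nat.sub_add_cancel hp.pos]
      ring
    omega

section Norm

variable {r p : ℕ} {T : Type*} [AddCommGroup T] [Module (ZMod r) T]

theorem norm_fixed (g : End (ZMod r) T) (hp : 0 < p) (hgp : g ^ p = 1) (t : T) :
    g (∑ j ∈ Finset.range p, (g ^ j) t) = ∑ j ∈ Finset.range p, (g ^ j) t := by
  rw [map_sum]
  have h2 := Finset.sum_range_succ (fun j => (g ^ j) t) p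
  have h3 := Finset.sum_range_succ' (fun j => (g ^ j) t) p
  simp only [hgp, pow_zero, Module.End.one_apply] at h2 h3
  rw [h2] at h3
  have h4 := add_right_cancel h3
  have h5 : ∀ j, g ((g ^ j) t) = (g ^ (j + 1)) t := by
    intro j
    rw [pow_succ']; rfl
  simp only [h5]
  exact h4.symm

theorem mem_range_sub_one (g : End (ZMod r) T) {m : T} :
    m ∈ LinearMap.range (g - 1) ↔ ∃ t, g t - t = m := by
  rw [LinearMap.mem_range]
  simp [LinearMap.sub_apply]

theorem pow_sub_mem (g : End (ZMod r) T) (j : ℕ) (t : T) : (g ^ j) t - t ∈ LinearMap.range (g - 1) := by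
  induction j with
  | zero => simp
  | succ j ih =>
    have h1 : (g ^ (j + 1)) t - t = g ((g ^ j) t - t) + (g t - t) := by
      rw [map_sub, pow_succ']
      show g ((g ^ j) t) - t = _
      abel
    rw [h1]
    refine Submodule.add_mem _ ?_ ((mem_range_sub_one g).mpr ⟨t, rfl⟩)
    obtain ⟨u, hu⟩ := (mem_range_sub_one g).mp ih
    exact (mem_range_sub_one g).mpr ⟨g u, by rw [← hu, map_sub]⟩

theorem decomp_mem (g : End (ZMod r) T) (t : T) :
    p • t - ∑ j ∈ Finset.range p, (g ^ j) t ∈ LinearMap.range (g - 1) := by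
  have h1 : p • t - ∑ j ∈ Finset.range p, (g ^ j) t = ∑ j ∈ Finset.range p, (t - (g ^ j) t) := by
    rw [Finset.sum_sub_distrib]
    simp only [Finset.sum_const, Finset.card_range]
  rw [h1]
  refine Submodule.sum_mem _ fun j _ => ?_
  have h2 := Submodule.neg_mem _ (pow_sub_mem g j t)
  rwa [neg_sub] at h2

end Norm

/-- **The conclusion on a symplectic module**: under the Hall--Higman bound, a coprime `s`-group of
isometries normalized by `g` acts trivially, if the elements commuting with `g` act trivially on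
the fixed points of `g`. -/
theorem sym_conclusion {r p s : ℕ} [Fact r.Prime] {T K₀ Y : Type*} [AddCommGroup T] [Module (ZMod r) T] [Finite T]
    [Field K₀] [Group Y] [Finite Y] (hp : p.Prime) (hpr : p ≠ r) (hs : s.Prime) (hsr : s ≠ r)
    (P : SymP T K₀) (hnd : ∀ s, (∀ t, P.f s t = 1) → s = 0) (hanti : ∀ s t, P.f t s = (P.f s t)⁻¹)
    (hSq : ∀ S : Submodule (ZMod r) T, (∀ s ∈ S, (∀ t ∈ S, P.f s t = 1) → s = 0) → ∃ n, Nat.card S = n ^ 2)
    (g : End (ZMod r) T) (hgp : g ^ p = 1) (hgP : ∀ s t, P.f (g s) (g t) = P.f s t)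
    (hE : Nat.card (LinearMap.range (g - 1)) ≤ (p - 1) ^ 2)
    (hYs : IsPGroup s Y) (hpY : ¬ p ∣ Nat.card Y) (β : Y →* End (ZMod r) T)
    (hβP : ∀ y s t, P.f (β y s) (β y t) = P.f s t)
    (σ : MulAut Y) (hσp : σ ^ p = 1) (hσ : ∀ y, g * β y = β (σ y) * g)
    (hyC : ∀ y, σ y = y → ∀ t, g t = t → β y t = t) : ∀ y, β y = 1 := by
  classical
  have hr : r.Prime := Fact.out
  haveI : Fact p.Prime := ⟨hp⟩
  haveI : Module.Finite (ZMod r) T := Module.Finite.of_finite
  have hcoppr : Nat.Coprime p r := (Nat.coprime_primes hp hr).mpr hpr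
  have hrT : ∀ t : T, r • t = 0 := by
    intro t
    have h := (ZMod.natCast_self r) ▸ (Nat.cast_smul_eq_nsmul (ZMod r) r t)
    rw [← h, zero_smul]
  have hpow_r : ∀ s t : T, P.f s t ^ r = 1 := by
    intro s t
    rw [← P.nsmul_r, hrT, P.zero_r]
  have hpT : ∀ t : T, p • t = 0 → t = 0 := by
    intro t ht
    obtain ⟨a, b, hab⟩ := Nat.Coprime.isCoprime hcoppr
    have h1 : (a * (p : ℤ) + b * (r : ℤ)) • t = t := by rw [hab, one_smul]
    rw [add_smul, mul_smul, mul_smul] at h1
    simp only [natCast_zsmul, ht, hrT, smul_zero, add_zero] at h1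
    exact h1.symm
  set M : Submodule (ZMod r) T := LinearMap.range (g - 1) with hMdef
  have hMg : ∀ m ∈ M, g m ∈ M := by
    intro m hm
    obtain ⟨t, rfl⟩ := (mem_range_sub_one g).mp hm
    exact (mem_range_sub_one g).mpr ⟨g t, by rw [map_sub]⟩
  have hMC : ∀ m ∈ M, g m = m → m = 0 := by
    intro m hm hfix
    obtain ⟨t, rfl⟩ := (mem_range_sub_one g).mp hm
    have h1 : ∀ j : ℕ, (g ^ j) t = t + j • (g t - t) := by
      intro j
      induction j with
      | zero => simp
      | succ j ih =>
        rw [pow_succ', Module.End.mul_apply, ih, map_add, map_nsmul, hfix, succ_nsmul]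
        abel
    have h2 := h1 p
    rw [hgp, Module.End.one_apply] at h2
    exact hpT _ (add_eq_left.mp h2.symm)
  have hMfix : ∀ m ∈ M, ∀ c, g c = c → P.f m c = 1 := by
    intro m hm c hc
    obtain ⟨t, rfl⟩ := (mem_range_sub_one g).mp hm
    rw [P.sub_l]
    have h1 := hgP t c
    rw [hc] at h1
    rw [h1, mul_inv_cancel₀ (P.ne _ _)]
  -- `M` is nondegenerate
  have hMnd : ∀ m ∈ M, (∀ t ∈ M, P.f m t = 1) → m = 0 := by
    intro m hm hperp
    apply hnd
    intro t
    have h1 : P.f m (p • t) = 1 := by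
      have h2 : p • t = (p • t - ∑ j ∈ Finset.range p, (g ^ j) t) + ∑ j ∈ Finset.range p, (g ^ j) t := by abel
      rw [h2, P.addr, hperp _ (decomp_mem g t), hMfix m hm _ (norm_fixed g hp.pos hgp t), mul_one]
    rw [P.nsmul_r] at h1
    exact eq_one_of_pow_of_pow hcoppr h1 (hpow_r m t)
  obtain ⟨E₁, hE₁⟩ := hSq M hMnd
  have hMcard : Nat.card M = r ^ finrank (ZMod r) M := by
    rw [Module.natCard_eq_pow_finrank (K := ZMod r), Nat.card_zmod]
  have hE₁pos : 0 < E₁ := by
    apply Nat.pos_of_ne_zero
    rintro rfl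
    have : 0 < Nat.card M := Nat.card_pos
    omega
  have hE₁le : E₁ ≤ p - 1 := by
    have h1 : E₁ ^ 2 ≤ (p - 1) ^ 2 := hE₁ ▸ hE
    exact le_of_pow_le_pow_left₀ two_ne_zero (Nat.zero_le _) h1
  -- the congruence
  have hmod : Nat.card M ≡ 1 [MOD p] := by
    let f : Function.End M := fun v => ⟨g v, hMg v v.2⟩
    have hfj : ∀ (j : ℕ) (v : M), ((f ^ j) v : T) = (g ^ j) v := by
      intro j v
      induction j with
      | zero => rfl
      | succ j ih =>
        rw [pow_succ', pow_succ']
        show g (((f ^ j) v : M) : T) = g ((g ^ j) (v : T))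
        rw [ih]
    have hfp : f ^ (p ^ 1) = 1 := by
      rw [pow_one]
      funext v
      apply Subtype.ext
      rw [hfj, hgp]
      rfl
    letI : Fintype M := Fintype.ofFinite _
    have hmod := Equiv.Perm.card_fixedPoints_modEq (f := f) (p := p) (n := 1) hfp
    rw [← Nat.card_eq_fintype_card, ← Nat.card_eq_fintype_card] at hmod
    have hfix : Function.fixedPoints f = {0} := by
      ext v
      simp only [Set.mem_singleton_iff]
      constructor
      · intro h
        apply Subtype.ext
        exact hMC v v.2 (congrArg Subtype.val h)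
      · rintro rfl
        apply Subtype.ext
        show g 0 = 0
        exact map_zero g
    have hcardfix : Nat.card (Function.fixedPoints f) = 1 := by
      rw [hfix]
      simp
    rwa [hcardfix] at hmod
  have hdvd : p ∣ E₁ ^ 2 - 1 := by
    rw [← hE₁]
    exact (Nat.modEq_iff_dvd' Nat.card_pos).mp hmod.symm
  have hfac : E₁ ^ 2 - 1 = (E₁ - 1) * (E₁ + 1) := by
    obtain ⟨c, rfl⟩ : ∃ c, E₁ = c + 1 := ⟨E₁ - 1, by omega⟩
    simp only [Nat.add_sub_cancel]
    have : (c + 1) ^ 2 = c * (c + 1 + 1) + 1 := by ring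
    omega
  have hE₁case : E₁ = 1 ∨ E₁ = p - 1 := by
    rw [hfac] at hdvd
    rcases (Nat.Prime.dvd_mul hp).mp hdvd with h | h
    · by_cases h0 : E₁ - 1 = 0
      · left; omega
      · have := Nat.le_of_dvd (Nat.pos_of_ne_zero h0) h
        have := hp.pos
        omega
    · have := Nat.le_of_dvd (by omega) h
      right
      have := hp.pos
      omega
  -- the elements commuting with `g`
  have hcard_cop : ∀ y : Y, (β y) ^ (Nat.card Y) = 1 := by
    intro y
    rw [← map_pow, pow_card_eq_one', map_one]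
  have hcoppY : Nat.Coprime p (Nat.card Y) := (Nat.Prime.coprime_iff_not_dvd hp).mpr hpY
  have hfixed : ∀ y, σ y = y → β y = 1 := by
    intro y hy
    rcases hE₁case with h1 | h1
    · -- `g` is trivial
      have hMbot : M = ⊥ := by
        have h2 : Nat.card M = 1 := by rw [hE₁, h1]; norm_num
        have h3 : Subsingleton M := (Nat.card_eq_one_iff_unique.mp h2).1
        exact (Submodule.subsingleton_iff_eq_bot).mp h3
      ext t
      refine hyC y hy t ?_
      have h3 : g t - t ∈ M := (mem_range_sub_one g).mpr ⟨t, rfl⟩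
      rw [hMbot, Submodule.mem_bot, sub_eq_zero] at h3
      exact h3
    · by_cases hE₁1 : E₁ = 1
      · have hMbot : M = ⊥ := by
          have h2 : Nat.card M = 1 := by rw [hE₁, hE₁1]; norm_num
          have h3 : Subsingleton M := (Nat.card_eq_one_iff_unique.mp h2).1
          exact (Submodule.subsingleton_iff_eq_bot).mp h3
        ext t
        refine hyC y hy t ?_
        have h3 : g t - t ∈ M := (mem_range_sub_one g).mpr ⟨t, rfl⟩
        rw [hMbot, Submodule.mem_bot, sub_eq_zero] at h3
        exact h3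
      -- the characteristic two case
      have hp2 : p ≠ 2 := by
        rintro rfl
        omega
      have hE₁even : 2 ∣ E₁ := by
        rw [h1]
        obtain ⟨c, hc⟩ := hp.odd_of_ne_two hp2
        exact ⟨c, by omega⟩
      have hpowr : E₁ ^ 2 = r ^ finrank (ZMod r) M := by rw [← hE₁, hMcard]
      have hr2 : r = 2 := by
        have h2 : 2 ∣ r ^ finrank (ZMod r) M := by
          rw [← hpowr]
          exact hE₁even.trans (dvd_pow_self _ two_ne_zero)
        exact ((Nat.prime_dvd_prime_iff_eq Nat.prime_two hr).mp (Nat.prime_two.dvd_of_dvd_pow h2)).symm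
      subst hr2
      obtain ⟨k, -, hk⟩ := (Nat.dvd_prime_pow Nat.prime_two).mp
        ((dvd_pow_self E₁ two_ne_zero).trans (dvd_of_eq hpowr))
      have hk1 : 1 ≤ k := by
        by_contra hcon
        have : k = 0 := by omega
        rw [this, pow_zero] at hk
        exact hE₁1 hk
      have hpk : p = 2 ^ k + 1 := by
        have := hp.pos
        omega
      subst hpk
      have hcomm : β y * g = g * β y := by
        have := hσ y
        rw [hy] at this
        exact this.symm
      have hMc : Nat.card (LinearMap.range (g - 1)) = 2 ^ (2 * k) := by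
        rw [← hMdef, hE₁, hk, ← pow_mul, mul_comm]
      have hpw := sym_two_frobenius P hnd hanti hk1 hp g (β y) hgp hcomm hgP (hβP y) (hyC y hy) hMc
      exact eq_one_of_pow_of_pow hcoppY hpw (hcard_cop y)
  -- the center of the quotient
  by_contra hcon
  push Not at hcon
  obtain ⟨y₁, hy₁⟩ := hcon
  have hginv : ∀ j, g ^ j * g ^ (p * (j + 1) - j) = 1 := by
    intro j
    rw [← pow_add]
    have h1 : j + (p * (j + 1) - j) = p * (j + 1) := by
      have : j ≤ p * (j + 1) := by
        have := hp.pos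
        nlinarith
      omega
    rw [h1, pow_mul, hgp, one_pow]
  let N₀ : Subgroup Y := β.ker
  have hN₀σ' : ∀ n ∈ N₀, σ n ∈ N₀ := by
    intro n hn
    have hn' : β n = 1 := hn
    show β (σ n) = 1
    have h1 := hσ n
    rw [hn', mul_one] at h1
    have h2 : g * g ^ (p - 1) = 1 := by
      rw [← pow_succ', Nat.sub_add_cancel hp.pos, hgp]
    calc β (σ n) = β (σ n) * (g * g ^ (p - 1)) := by rw [h2, mul_one]
      _ = (β (σ n) * g) * g ^ (p - 1) := by rw [mul_assoc]
      _ = g * g ^ (p - 1) := by rw [← h1]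
      _ = 1 := h2
  have hN₀σ : ∀ n, n ∈ N₀ ↔ σ n ∈ N₀ := inv_iff_of_pow_eq_one σ N₀ hN₀σ' hp.pos hσp
  haveI hN₀n : N₀.Normal := MonoidHom.normal_ker β
  let Yb := Y ⧸ N₀
  let σb : MulAut Yb := autQuot σ N₀ hN₀σ
  let φb : Yb →* End (ZMod r) T := QuotientGroup.lift N₀ β le_rfl
  have hφbmk : ∀ y : Y, φb (y : Yb) = β y := fun y => rfl
  have hφb : Function.Injective φb := by
    intro a c
    induction a using QuotientGroup.induction_on with
    | H a =>
      induction c using QuotientGroup.induction_on with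
      | H c =>
        intro h
        rw [hφbmk, hφbmk] at h
        rw [QuotientGroup.eq]
        show β (a⁻¹ * c) = 1
        have h3 : (β a⁻¹) * (β a) = 1 := by rw [← map_mul, inv_mul_cancel, map_one]
        rw [map_mul, ← h, h3]
  have hYbp : IsPGroup s Yb := hYs.of_surjective (QuotientGroup.mk' N₀) (QuotientGroup.mk'_surjective N₀)
  have hYbnt : Nontrivial Yb := by
    refine ⟨⟨(y₁ : Yb), 1, ?_⟩⟩
    intro h
    apply hy₁
    rw [← hφbmk, h, map_one]
  haveI : Fact s.Prime := ⟨hs⟩
  let L : Subgroup Yb := Subgroup.center Yb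
  have hLnt : Nontrivial L := hYbp.center_nontrivial
  have hLc : ∀ a b : L, a * b = b * a := by
    intro a b
    apply Subtype.ext
    exact (Subgroup.mem_center_iff.mp a.2 b).symm
  have hLσ : ∀ x, x ∈ L ↔ σb x ∈ L := by
    intro x
    constructor
    · intro hx
      rw [Subgroup.mem_center_iff] at hx ⊢
      intro w
      obtain ⟨w', rfl⟩ := σb.surjective w
      rw [← map_mul, ← map_mul, hx]
    · intro hx
      rw [Subgroup.mem_center_iff] at hx ⊢
      intro w
      apply σb.injective
      rw [map_mul, map_mul]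
      exact hx _
  let γL : MulAut L := restrictAut σb L hLσ
  let ψ : L →* End (ZMod r) T := φb.comp L.subtype
  have hψ : Function.Injective ψ := hφb.comp L.subtype_injective
  letI instL : CommGroup L := { (inferInstance : Group L) with mul_comm := hLc }
  letI : Fintype L := Fintype.ofFinite _
  have hcardL : Nat.Coprime (Fintype.card L) r := by
    have hLp : IsPGroup s L := hYbp.to_subgroup L
    obtain ⟨k, hk⟩ := IsPGroup.iff_card.mp hLp
    rw [← Nat.card_eq_fintype_card, hk]
    exact Nat.Coprime.pow_left _ ((Nat.coprime_primes hs hr).mpr hsr)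
  have hg : ∀ a : L, g * ψ a = ψ (γL a) * g := by
    rintro ⟨a, ha⟩
    induction a using QuotientGroup.induction_on with
    | H y => exact hσ y
  have hσbp : ∀ x : Yb, (σb ^ p) x = x := by
    intro x
    induction x using QuotientGroup.induction_on with
    | H y =>
      show ((autQuot σ N₀ hN₀σ) ^ p) (y : Y ⧸ N₀) = (y : Y ⧸ N₀)
      rw [autQuot_pow_mk, hσp]
      rfl
  have hγp : γL ^ p = 1 := by
    apply MulEquiv.ext
    intro a
    apply Subtype.ext
    rw [restrictAut_pow_coe]
    exact hσbp _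
  have hfpf : ∀ a : L, γL a = a → a = 1 := by
    rintro ⟨a, ha⟩ h
    have h1 : σb a = a := congrArg Subtype.val h
    induction a using QuotientGroup.induction_on with
    | H y =>
      have h2 : ((σ y : Y) : Yb) = (y : Yb) := h1
      -- the fixed lift
      let Pa : Subgroup (MulAut Y) := Subgroup.zpowers σ
      have hPa : IsPGroup p Pa := by
        rintro ⟨x, hx⟩
        obtain ⟨i, rfl⟩ := mem_powers_iff_mem_zpowers.mpr hx
        refine ⟨1, ?_⟩
        apply Subtype.ext
        show ((σ ^ i) ^ p ^ 1 : MulAut Y) = 1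
        rw [pow_one, ← pow_mul, mul_comm, pow_mul, hσp, one_pow]
      have hpow1 : ∀ (i : ℕ), ∀ n ∈ N₀, (σ ^ i) n ∈ N₀ := by
        intro i
        induction i with
        | zero => intro n hn; exact hn
        | succ i ih =>
          intro n hn
          rw [pow_succ']
          exact hN₀σ' _ (ih n hn)
      have hpow2 : ∀ (i : ℕ), (((σ ^ i) y : Y) : Yb) = (y : Yb) := by
        intro i
        rw [← autQuot_pow_mk σ N₀ hN₀σ i y]
        induction i with
        | zero => rfl
        | succ i ih =>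
          rw [pow_succ', MulAut.mul_apply, ih]
          exact h1
      obtain ⟨n, hn, hfx⟩ := Cfsg.Agent.Lib.WardSym.exists_fixed_mul' hPa Pa.subtype N₀
        (fun h => hpY (h.trans (Subgroup.card_subgroup_dvd_card _)))
        (by
          rintro ⟨x, hx⟩ n hn
          obtain ⟨i, rfl⟩ := mem_powers_iff_mem_zpowers.mpr hx
          exact hpow1 i n hn)
        y (by
          rintro ⟨x, hx⟩
          obtain ⟨i, rfl⟩ := mem_powers_iff_mem_zpowers.mpr hx
          have h3 := hpow2 i
          rw [QuotientGroup.eq] at h3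
          have h4 := N₀.inv_mem h3
          simpa using h4)
      have h5 : σ (y * n) = y * n := hfx ⟨σ, Subgroup.mem_zpowers σ⟩
      have h6 := hfixed _ h5
      have hn' : β n = 1 := hn
      rw [map_mul, hn', mul_one] at h6
      apply Subtype.ext
      apply hφb
      rw [hφbmk]
      show β y = φb 1
      rw [h6, map_one]
  have hψP : ∀ a s t, P.f (ψ a s) (ψ a t) = P.f s t := by
    rintro ⟨a, ha⟩ s t
    induction a using QuotientGroup.induction_on with
    | H y => exact hβP y s t
  have hbound := sym_free_bound hp hpr P hnd hSq hcardL ψ hψ g γL hg hgp hγp hfpf hgP hψP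
  have h1 : r ^ (2 * (p - 1)) ≤ Nat.card M := by
    rw [hMcard]
    exact Nat.pow_le_pow_right hr.pos hbound
  have h2 : 2 ^ (2 * (p - 1)) ≤ r ^ (2 * (p - 1)) := Nat.pow_le_pow_left hr.two_le _
  have h3 : (p - 1) < 2 ^ (p - 1) := Nat.lt_two_pow_self
  have h4 : (p - 1) ^ 2 < (2 ^ (p - 1)) ^ 2 := Nat.pow_lt_pow_left h3 two_ne_zero
  have h5 : (2 ^ (p - 1)) ^ 2 = 2 ^ (2 * (p - 1)) := by rw [← pow_mul, mul_comm]
  omega

end Pairing

end Cfsg.Agent.Lib.WardSym
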