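import Mathlib
import Cfsg.Agent.Lib.HHChar
import Cfsg.Agent.Lib.HHCrit
import Cfsg.Agent.Lib.WardSym
import Cfsg.Agent.Lib.FlavMTPerm

/-!
The imprimitive case: a normal abelian subgroup which does not act by scalars.
-/

set_option autoImplicit false
set_option linter.unusedSectionVars false
set_option linter.unusedVariables false
set_option linter.style.haveILetI false

namespace Cfsg.Agent.Lib.FlavMTWt

open Module Cfsg.Agent.Lib.HHChar Cfsg.Agent.Lib.WardSym Cfsg.Agent.Lib.FlavMTPerm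
open Cfsg.Agent.Lib.HHCrit (Irr)

variable {K : Type*} [Field K] {V : Type*} [AddCommGroup V] [Module K V] [FiniteDimensional K V]

section Gen

variable {L : Type*} [Group L] [Fintype L] {ψ : L →* End K V}

theorem prj_comm' (hcomm : ∀ a b : L, a * b = b * a) (χ : L →* K) (b : L) :
    ψ b * prj ψ χ = prj ψ χ * ψ b := by
  unfold prj
  rw [Finset.mul_sum, Finset.sum_mul]
  refine Finset.sum_congr rfl fun a _ => ?_
  rw [mul_smul_comm, smul_mul_assoc, ← map_mul, ← map_mul, hcomm]

theorem zero_of_prj [IsAlgClosed K] (hcomm : ∀ a b : L, a * b = b * a)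
    (hL : (Fintype.card L : K) ≠ 0) (v : V) (hv : ∀ χ : L →* K, prj ψ χ v = 0) : v = 0 := by
  by_contra hv0
  let E : Submodule K V := ⨅ χ : L →* K, LinearMap.ker (prj ψ χ)
  have hvE : v ∈ E := Submodule.mem_iInf _ |>.mpr fun χ => LinearMap.mem_ker.mpr (hv χ)
  have hE : E ≠ ⊥ := by
    intro h
    rw [h] at hvE
    exact hv0 ((Submodule.mem_bot _).mp hvE)
  obtain ⟨χ, u, huE, hu0, hu⟩ := exists_common_eigen ψ E hE
    (by
      intro a u hu
      refine (Submodule.mem_iInf _).mpr fun χ => LinearMap.mem_ker.mpr ?_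
      have h1 := congrArg (fun z : End K V => z u) (prj_comm' (ψ := ψ) hcomm χ a)
      simp only [Module.End.mul_apply] at h1
      rw [← h1, LinearMap.mem_ker.mp ((Submodule.mem_iInf _).mp hu χ), map_zero])
    (by
      intro a b u _
      rw [← Module.End.mul_apply, ← Module.End.mul_apply, ← map_mul, ← map_mul, hcomm])
  have h1 : prj ψ χ u = 0 := LinearMap.mem_ker.mp ((Submodule.mem_iInf _).mp huE χ)
  rw [prj_self ψ χ hu] at h1
  rcases smul_eq_zero.mp h1 with h2 | h2
  · exact hL h2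
  · exact hu0 h2

theorem sum_finrank_wt_le (hL : (Fintype.card L : K) ≠ 0) (S : Finset (L →* K)) :
    ∑ χ ∈ S, finrank K (wt ψ χ) ≤ finrank K V := by
  classical
  let Φ : (∀ χ : S, wt ψ (χ : L →* K)) →ₗ[K] V :=
    { toFun := fun u => ∑ χ, (u χ : V)
      map_add' := by
        intro u v
        simp [Finset.sum_add_distrib]
      map_smul' := by
        intro c u
        simp [Finset.smul_sum] }
  have hΦ : Function.Injective Φ := by
    rw [injective_iff_map_eq_zero]
    intro u hu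
    funext χ₀
    apply Subtype.ext
    have h1 : prj ψ (χ₀ : L →* K) (∑ χ, (u χ : V)) = 0 := by
      have : (∑ χ, (u χ : V)) = 0 := hu
      rw [this, map_zero]
    rw [map_sum, Finset.sum_eq_single χ₀] at h1
    · rw [prj_self ψ _ (u χ₀).2] at h1
      exact (smul_eq_zero.mp h1).resolve_left hL
    · intro χ _ hne
      exact prj_other ψ (fun h => hne (Subtype.ext h)) (u χ).2
    · simp
  have h1 := LinearMap.finrank_le_finrank_of_injective hΦ
  rw [Module.finrank_pi_fintype] at h1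
  rw [← Finset.sum_coe_sort]
  exact h1

theorem finrank_ker_le [IsAlgClosed K] (hcomm : ∀ a b : L, a * b = b * a)
    (hL : (Fintype.card L : K) ≠ 0) {g : End K V} {γ : MulAut L}
    (hg : ∀ a, g * ψ a = ψ (γ a) * g) (Ξ : Finset (L →* K))
    (hΞ : ∀ χ, wt ψ χ ≠ ⊥ → ∃ ξ ∈ Ξ, ∃ j : ℕ, (twistChar γ ^ j) ξ = χ) :
    finrank K (LinearMap.ker (g - 1)) ≤ ∑ ξ ∈ Ξ, finrank K (wt ψ ξ) := by
  classical
  let Θ : LinearMap.ker (g - 1) →ₗ[K] (∀ ξ : Ξ, wt ψ (ξ : L →* K)) :=
    { toFun := fun v ξ => ⟨prj ψ (ξ : L →* K) v, prj_mem ψ _ _⟩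
      map_add' := by
        intro u v
        funext ξ
        apply Subtype.ext
        simp
      map_smul' := by
        intro c u
        funext ξ
        apply Subtype.ext
        simp }
  have hΘ : Function.Injective Θ := by
    rw [injective_iff_map_eq_zero]
    intro v hv
    have hv1 : g v = v := by
      have h := LinearMap.mem_ker.mp v.2
      rw [LinearMap.sub_apply, Module.End.one_apply, sub_eq_zero] at h
      exact h
    have hvj : ∀ j : ℕ, (g ^ j) (v : V) = v := by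
      intro j
      induction j with
      | zero => rfl
      | succ j ih => rw [pow_succ, Module.End.mul_apply, hv1, ih]
    have hξ : ∀ ξ ∈ Ξ, prj ψ ξ (v : V) = 0 := by
      intro ξ hξ
      have := congrFun hv ⟨ξ, hξ⟩
      exact congrArg Subtype.val this
    apply Subtype.ext
    refine zero_of_prj (ψ := ψ) hcomm hL _ ?_
    intro χ
    by_cases hχ : wt ψ χ = ⊥
    · have h2 := prj_mem ψ χ (v : V)
      rw [hχ] at h2
      exact (Submodule.mem_bot _).mp h2
    · obtain ⟨ξ, hξm, j, rfl⟩ := hΞ χ hχ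
      have h1 := congrArg (fun z : End K V => z (v : V)) (gpow_prj hg j ξ)
      simp only [Module.End.mul_apply, hvj, hξ ξ hξm, map_zero] at h1
      exact h1.symm
  have h1 := LinearMap.finrank_le_finrank_of_injective hΘ
  rw [Module.finrank_pi_fintype] at h1
  rw [← Finset.sum_coe_sort]
  exact h1

end Gen

/-- The imprimitive case. -/
theorem imprimitive [IsAlgClosed K] {G : Type*} [Group G] [Finite G] [Group.IsSolvable G] [Nontrivial V]
    (ρ : G →* End K V) (hirr : Irr ρ) (A : Subgroup G) [hAn : A.Normal]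
    (hcomm : ∀ a ∈ A, ∀ b ∈ A, a * b = b * a) (hcard : (Nat.card A : K) ≠ 0)
    (hns : ∃ a ∈ A, ∀ c : K, ρ a ≠ c • 1) {p : ℕ} (hp : p.Prime) (hp5 : 5 ≤ p) (x : G)
    (hx : x ^ p = 1) (hgen : Subgroup.normalClosure {x} = ⊤) :
    2 * finrank K (LinearMap.ker (ρ x - 1)) < finrank K V := by
  classical
  letI : Fintype A := Fintype.ofFinite A
  have hL : (Fintype.card A : K) ≠ 0 := by rwa [← Nat.card_eq_fintype_card]
  have hcommL : ∀ a b : A, a * b = b * a := fun a b => Subtype.ext (hcomm a a.2 b b.2)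
  let ψ : A →* End K V := ρ.comp A.subtype
  have hψ : ∀ a : A, ψ a = ρ a := fun a => rfl
  let γ : G → MulAut A := fun g => MulAut.conjNormal g
  have hγ : ∀ g (a : A), ((γ g a : A) : G) = g * a * g⁻¹ := fun g a => MulAut.conjNormal_apply g a
  have hg : ∀ g (a : A), ρ g * ψ a = ψ (γ g a) * ρ g := by
    intro g a
    rw [hψ, hψ, hγ, ← map_mul, ← map_mul]
    congr 1
    group
  let τ : G → Equiv.Perm (A →* K) := fun g => twistChar (γ g)
  have hτ1 : τ 1 = 1 := by
    ext χ a
    show χ (((γ 1)⁻¹ : MulAut A) a) = χ a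
    have : γ 1 = 1 := map_one _
    rw [this, inv_one]
    rfl
  have hτmul : ∀ g h, τ (g * h) = τ g * τ h := by
    intro g h
    ext χ a
    show χ (((γ (g * h))⁻¹ : MulAut A) a) = χ (((γ h)⁻¹ : MulAut A) (((γ g)⁻¹ : MulAut A) a))
    have : γ (g * h) = γ g * γ h := map_mul _ g h
    rw [this, mul_inv_rev]
    rfl
  have hρinj : ∀ g, Function.Injective (ρ g) := by
    intro g u u' h
    have h1 := congrArg (ρ g⁻¹) h
    rw [← Module.End.mul_apply, ← Module.End.mul_apply, ← map_mul, inv_mul_cancel, map_one] at h1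
    exact h1
  have hgwt : ∀ g {χ : A →* K} {u : V}, u ∈ wt ψ χ → ρ g u ∈ wt ψ (τ g χ) :=
    fun g χ u hu => g_mem_wt (hg g) hu
  have hstable : ∀ g (χ : A →* K), wt ψ χ ≠ ⊥ → wt ψ (τ g χ) ≠ ⊥ := by
    intro g χ hχ hb
    obtain ⟨u, hu, hu0⟩ := Submodule.exists_mem_ne_zero_of_ne_bot hχ
    have h1 := hgwt g hu
    rw [hb] at h1
    exact hu0 (hρinj g (by rw [(Submodule.mem_bot _).mp h1, map_zero]))
  have hdimle : ∀ g (χ : A →* K), finrank K (wt ψ χ) ≤ finrank K (wt ψ (τ g χ)) := by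
    intro g χ
    let T : wt ψ χ →ₗ[K] wt ψ (τ g χ) :=
      ((ρ g).comp (wt ψ χ).subtype).codRestrict _ (fun u => hgwt g u.2)
    have hT : Function.Injective T := by
      intro u v h
      apply Subtype.ext
      exact hρinj g (congrArg Subtype.val h)
    exact LinearMap.finrank_le_finrank_of_injective hT
  have hτinv : ∀ g (χ : A →* K), τ g⁻¹ (τ g χ) = χ := by
    intro g χ
    rw [← Equiv.Perm.mul_apply, ← hτmul, inv_mul_cancel, hτ1]
    rfl
  have hdim : ∀ g (χ : A →* K), finrank K (wt ψ (τ g χ)) = finrank K (wt ψ χ) := by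
    intro g χ
    refine le_antisymm ?_ (hdimle g χ)
    have h1 := hdimle g⁻¹ (τ g χ)
    rwa [hτinv] at h1
  -- a first character
  obtain ⟨χ₀, u₀, -, hu₀, hu₀w⟩ := exists_common_eigen ψ ⊤ top_ne_bot
    (fun a u _ => Submodule.mem_top)
    (by
      intro a b u _
      rw [← Module.End.mul_apply, ← Module.End.mul_apply, ← map_mul, ← map_mul, hcommL])
  have hχ₀ : wt ψ χ₀ ≠ ⊥ := by
    intro hb
    rw [hb] at hu₀w
    exact hu₀ ((Submodule.mem_bot _).mp hu₀w)
  -- the orbit spans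
  let W : Submodule K V := ⨆ g : G, wt ψ (τ g χ₀)
  have hWtop : W = ⊤ := by
    refine (hirr W ?_).resolve_left ?_
    · intro g w hw
      have h1 : W ≤ W.comap (ρ g) := by
        refine iSup_le fun g' => ?_
        intro u hu
        have h2 := hgwt g hu
        rw [← Equiv.Perm.mul_apply, ← hτmul] at h2
        exact (le_iSup (fun g'' : G => wt ψ (τ g'' χ₀)) (g * g')) h2
      exact h1 hw
    · intro hb
      have h1 : wt ψ (τ 1 χ₀) ≤ W := le_iSup (fun g'' : G => wt ψ (τ g'' χ₀)) 1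
      rw [hb, hτ1] at h1
      exact hχ₀ (le_bot_iff.mp h1)
  have horb : ∀ χ, wt ψ χ ≠ ⊥ → ∃ g, τ g χ₀ = χ := by
    intro χ hχ
    by_contra hcon
    push Not at hcon
    have h1 : W ≤ LinearMap.ker (prj ψ χ) := by
      refine iSup_le fun g u hu => ?_
      exact LinearMap.mem_ker.mpr (prj_other ψ (hcon g) hu)
    rw [hWtop] at h1
    obtain ⟨u, hu, hu0⟩ := Submodule.exists_mem_ne_zero_of_ne_bot hχ
    have h2 : prj ψ χ u = 0 := LinearMap.mem_ker.mp (h1 Submodule.mem_top)
    rw [prj_self ψ χ hu] at h2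
    exact hu0 ((smul_eq_zero.mp h2).resolve_left hL)
  -- the set of weights
  let Ω := {χ : A →* K // wt ψ χ ≠ ⊥}
  letI : MulAction G Ω :=
    { smul := fun g χ => ⟨τ g χ.1, hstable g χ.1 χ.2⟩
      one_smul := by
        intro χ
        apply Subtype.ext
        show τ 1 χ.1 = χ.1
        rw [hτ1]
        rfl
      mul_smul := by
        intro g h χ
        apply Subtype.ext
        show τ (g * h) χ.1 = τ g (τ h χ.1)
        rw [hτmul]
        rfl }
  have hsmul : ∀ (g : G) (χ : Ω), ((g • χ : Ω) : A →* K) = τ g χ.1 := fun g χ => rfl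
  have hfinite_chars : Finite (A →* K) := finite_chars
  haveI : Finite Ω := Subtype.finite
  haveI htrans : MulAction.IsPretransitive G Ω := by
    refine ⟨fun χ χ' => ?_⟩
    obtain ⟨g₁, h₁⟩ := horb χ.1 χ.2
    obtain ⟨g₂, h₂⟩ := horb χ'.1 χ'.2
    refine ⟨g₂ * g₁⁻¹, Subtype.ext ?_⟩
    rw [hsmul, ← h₁, ← h₂, hτmul, Equiv.Perm.mul_apply, hτinv]
  haveI hnt : Nontrivial Ω := by
    by_contra hcon
    rw [not_nontrivial_iff_subsingleton] at hcon
    have hall : ∀ g, τ g χ₀ = χ₀ := by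
      intro g
      have := hcon.elim (⟨τ g χ₀, hstable g χ₀ hχ₀⟩ : Ω) ⟨χ₀, hχ₀⟩
      exact congrArg Subtype.val this
    have h1 : W ≤ wt ψ χ₀ := by
      refine iSup_le fun g => ?_
      rw [hall g]
    rw [hWtop] at h1
    obtain ⟨a, haA, ha⟩ := hns
    apply ha (χ₀ ⟨a, haA⟩)
    ext v
    have h2 : ρ a v = χ₀ ⟨a, haA⟩ • v := (h1 (Submodule.mem_top (x := v))) ⟨a, haA⟩
    rw [h2]
    simp
  have hthree := three_le_card (G := G) (Ω := Ω) (hp.odd_of_ne_two (by omega)) x hx hgen
  -- orbit representatives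
  let π : Equiv.Perm Ω := MulAction.toPerm x
  have hπj : ∀ (j : ℕ) (ω : Ω), (((π ^ j) ω : Ω) : A →* K) = (τ x ^ j) ω.1 := by
    intro j
    induction j with
    | zero => intro ω; rfl
    | succ j ih =>
      intro ω
      rw [pow_succ', Equiv.Perm.mul_apply, pow_succ', Equiv.Perm.mul_apply, ← ih]
      rfl
  have hπp : π ^ p = 1 := by
    ext ω
    rw [hπj]
    have h1 : ∀ j : ℕ, (τ x) ^ j = τ (x ^ j) := by
      intro j
      induction j with
      | zero => rw [pow_zero, pow_zero, hτ1]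
      | succ j ih => rw [pow_succ, pow_succ, hτmul, ih]
    rw [h1, hx, hτ1]
    rfl
  obtain ⟨Ξ₀, hΞ₁, hΞ₂⟩ := exists_orbit_reps π hp hπp
  have hfixcard : Nat.card {ω : Ω // π ω = ω} = Nat.card {ω : Ω // x • ω = ω} := rfl
  rw [hfixcard] at hΞ₂
  set v := finrank K (wt ψ χ₀) with hv
  have hvpos : 0 < v := by
    rw [hv]
    have : Nontrivial (wt ψ χ₀) := Submodule.nontrivial_iff_ne_bot.mpr hχ₀
    exact Module.finrank_pos
  have hvall : ∀ ω : Ω, finrank K (wt ψ ω.1) = v := by
    intro ω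
    obtain ⟨g, hg'⟩ := horb ω.1 ω.2
    rw [← hg', hdim]
  letI : Fintype Ω := Fintype.ofFinite Ω
  -- the upper bound
  have hup : finrank K (LinearMap.ker (ρ x - 1)) ≤ Ξ₀.card * v := by
    have h1 := finrank_ker_le (ψ := ψ) hcommL hL (g := ρ x) (γ := γ x) (hg x)
      (Ξ₀.image Subtype.val) (by
        intro χ hχ
        obtain ⟨ξ, hξ, j, hj⟩ := hΞ₁ ⟨χ, hχ⟩
        refine ⟨ξ.1, Finset.mem_image_of_mem _ hξ, j, ?_⟩
        have h2 := hπj j ξ
        rw [hj] at h2
        exact h2.symm)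
    rw [Finset.sum_image (fun a _ b _ h => Subtype.ext h)] at h1
    simp only [hvall, Finset.sum_const, smul_eq_mul] at h1
    exact h1
  -- the lower bound
  have hlow : Nat.card Ω * v ≤ finrank K V := by
    have h1 := sum_finrank_wt_le (ψ := ψ) hL ((Finset.univ : Finset Ω).image Subtype.val)
    rw [Finset.sum_image (fun a _ b _ h => Subtype.ext h)] at h1
    simp only [hvall, Finset.sum_const, smul_eq_mul, Finset.card_univ] at h1
    rwa [Nat.card_eq_fintype_card]
  -- the arithmetic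
  set w := Nat.card Ω with hw
  set f := Nat.card {ω : Ω // x • ω = ω} with hf
  set k := Ξ₀.card with hk
  have hwpos : 0 < w := Nat.card_pos
  have hlt : 2 * k < w := by
    by_contra hcon
    push Not at hcon
    obtain ⟨q, rfl⟩ : ∃ q, p = q + 1 := ⟨p - 1, by omega⟩
    rw [Nat.add_sub_cancel] at hΞ₂
    nlinarith
  calc 2 * finrank K (LinearMap.ker (ρ x - 1)) ≤ 2 * (k * v) := Nat.mul_le_mul_left _ hup
    _ = (2 * k) * v := by ring
    _ < w * v := Nat.mul_lt_mul_of_pos_right hlt hvpos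
    _ ≤ _ := hlow

end Cfsg.Agent.Lib.FlavMTWt
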