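import Mathlib

set_option autoImplicit false

namespace Cfsg.Agent.Flavell

universe u

section basics

variable {H : Type u} [Group H]

/-- The subgroup `[h, ⟨x⟩]`. -/
def R (x : MulAut H) (h : H) : Subgroup H :=
  Subgroup.closure {c : H | ∃ i : ℕ, c = h⁻¹ * (x ^ i) h}

/-- The subgroup `[K, ⟨x⟩]`. -/
def DK (x : MulAut H) (K : Subgroup H) : Subgroup H :=
  Subgroup.closure {c : H | ∃ k ∈ K, ∃ i : ℕ, c = k⁻¹ * (x ^ i) k}

/-- fixed points -/
def Fx (x : MulAut H) : Subgroup H := (x : H →* H).eqLocus (MonoidHom.id H)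

theorem mem_Fx {x : MulAut H} {y : H} : y ∈ Fx x ↔ x y = y := Iff.rfl

/-- the target subgroup -/
def W (x : MulAut H) : Subgroup H := ⨆ h : H, R x h ⊓ Fx x

/-- invariance -/
def InvS (x : MulAut H) (K : Subgroup H) : Prop := ∀ y ∈ K, x y ∈ K

theorem invS_closure {x : MulAut H} {S : Set H} (h : ∀ y ∈ S, x y ∈ Subgroup.closure S) :
    InvS x (Subgroup.closure S) := by
  have : Subgroup.closure S ≤ (Subgroup.closure S).comap (x : H →* H) :=
    (Subgroup.closure_le _).2 h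
  exact fun y hy => this hy

theorem InvS.pow {x : MulAut H} {K : Subgroup H} (hK : InvS x K) (i : ℕ) {y : H} (hy : y ∈ K) :
    (x ^ i) y ∈ K := by
  induction i with
  | zero => simpa using hy
  | succ i ih =>
    rw [pow_succ', MulAut.mul_apply]
    exact hK _ ih

theorem inv_eq_pow {x : MulAut H} {p : ℕ} (hp : 0 < p) (hxp : x ^ p = 1) : x⁻¹ = x ^ (p - 1) := by
  rw [inv_eq_iff_mul_eq_one, ← pow_succ', Nat.sub_add_cancel hp, hxp]

theorem InvS.inv {x : MulAut H} {K : Subgroup H} {p : ℕ} (hp : 0 < p) (hxp : x ^ p = 1)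
    (hK : InvS x K) : InvS x⁻¹ K := by
  intro y hy
  rw [inv_eq_pow hp hxp]
  exact hK.pow _ hy

theorem pow_fixed {x : MulAut H} {y : H} (h : x y = y) (i : ℕ) : (x ^ i) y = y := by
  induction i with
  | zero => simp
  | succ i ih =>
    rw [pow_succ', MulAut.mul_apply, ih, h]

theorem mem_R_self (x : MulAut H) (h : H) (i : ℕ) : h⁻¹ * (x ^ i) h ∈ R x h :=
  Subgroup.subset_closure ⟨i, rfl⟩

theorem mem_DK {x : MulAut H} {K : Subgroup H} {k : H} (hk : k ∈ K) (i : ℕ) :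
    k⁻¹ * (x ^ i) k ∈ DK x K :=
  Subgroup.subset_closure ⟨k, hk, i, rfl⟩

theorem DK_mono (x : MulAut H) {K L : Subgroup H} (h : K ≤ L) : DK x K ≤ DK x L := by
  apply Subgroup.closure_mono
  rintro _ ⟨k, hk, i, rfl⟩
  exact ⟨k, h hk, i, rfl⟩

theorem R_le_DK (x : MulAut H) (h : H) {K : Subgroup H} (hh : h ∈ K) : R x h ≤ DK x K := by
  apply Subgroup.closure_mono
  rintro _ ⟨i, rfl⟩
  exact ⟨h, hh, i, rfl⟩

theorem DK_le {x : MulAut H} {K : Subgroup H} (hK : InvS x K) : DK x K ≤ K := by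
  apply (Subgroup.closure_le _).2
  rintro _ ⟨k, hk, i, rfl⟩
  exact K.mul_mem (K.inv_mem hk) (hK.pow i hk)

theorem R_inv (x : MulAut H) (h : H) : InvS x (R x h) := by
  apply invS_closure
  rintro _ ⟨i, rfl⟩
  have : x (h⁻¹ * (x ^ i) h) = (h⁻¹ * (x ^ 1) h)⁻¹ * (h⁻¹ * (x ^ (i + 1)) h) := by
    rw [pow_succ' x i, MulAut.mul_apply, pow_one, map_mul, map_inv]
    group
  rw [this]
  exact Subgroup.mul_mem _ (Subgroup.inv_mem _ (mem_R_self x h 1)) (mem_R_self x h (i + 1))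

theorem DK_inv (x : MulAut H) {K : Subgroup H} (hK : InvS x K) : InvS x (DK x K) := by
  apply invS_closure
  rintro _ ⟨k, hk, i, rfl⟩
  have : x (k⁻¹ * (x ^ i) k) = (x k)⁻¹ * (x ^ i) (x k) := by
    rw [map_mul, map_inv, ← MulAut.mul_apply, ← MulAut.mul_apply, ← pow_succ, ← pow_succ']
  rw [this]
  exact mem_DK (hK _ hk) i

/-- `DK x K` is normalised by `K`. -/
theorem DK_conj (x : MulAut H) {K : Subgroup H} {k : H} (hk : k ∈ K) {y : H} (hy : y ∈ DK x K) :
    k * y * k⁻¹ ∈ DK x K := by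
  have : DK x K ≤ (DK x K).comap (MulAut.conj k).toMonoidHom := by
    apply (Subgroup.closure_le _).2
    rintro _ ⟨a, ha, i, rfl⟩
    have e : (MulAut.conj k).toMonoidHom (a⁻¹ * (x ^ i) a) =
        ((a * k⁻¹)⁻¹ * (x ^ i) (a * k⁻¹)) * (k⁻¹⁻¹ * (x ^ i) k⁻¹)⁻¹ := by
      simp only [MulEquiv.toMonoidHom_eq_coe, MonoidHom.coe_coe, MulAut.conj_apply, map_mul, map_inv]
      group
    show (MulAut.conj k).toMonoidHom (a⁻¹ * (x ^ i) a) ∈ DK x K
    rw [e]
    exact Subgroup.mul_mem _ (mem_DK (K.mul_mem ha (K.inv_mem hk)) i)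
      (Subgroup.inv_mem _ (mem_DK (K.inv_mem hk) i))
  exact this hy

theorem c_succ (x : MulAut H) (h : H) (i : ℕ) :
    h⁻¹ * (x ^ (i + 1)) h = (h⁻¹ * (x ^ i) h) * (x ^ i) (h⁻¹ * x h) := by
  rw [pow_succ, MulAut.mul_apply, map_mul, map_inv]
  group

end basics

section coprime

variable {H : Type u} [Group H] [Finite H]

theorem exists_root {p : ℕ} (hc : (Nat.card H).Coprime p) :
    ∃ n : ℕ, ∀ y : H, (y ^ p) ^ n = y := by
  by_cases h1 : 1 < Nat.card H
  · obtain ⟨m, -, hm⟩ := Nat.exists_mul_mod_eq_one_of_coprime hc.symm h1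
    refine ⟨m, fun y => ?_⟩
    rw [← pow_mul, ← pow_mod_natCard, hm, pow_one]
  · have hpos : 0 < Nat.card H := Nat.card_pos
    have : Nat.card H = 1 := by omega
    have hs : Subsingleton H := (Nat.card_eq_one_iff_unique.1 this).1
    exact ⟨1, fun y => Subsingleton.elim _ _⟩

theorem mem_of_pow_mem {p : ℕ} (hc : (Nat.card H).Coprime p) {X : Subgroup H} {y : H}
    (h : y ^ p ∈ X) : y ∈ X := by
  obtain ⟨n, hn⟩ := exists_root hc
  rw [← hn y]
  exact X.pow_mem h n

theorem eq_one_of_pow_eq_one {p : ℕ} (hc : (Nat.card H).Coprime p) {y : H}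
    (h : y ^ p = 1) : y = 1 := by
  obtain ⟨n, hn⟩ := exists_root hc
  rw [← hn y, h, one_pow]

end coprime

theorem fp_lemma {α : Type*} [Finite α] [Nonempty α] {p : ℕ} (hp : p.Prime) (f : α → α)
    (hf : f^[p] = id) (hc : ¬ p ∣ Nat.card α) : ∃ a, f a = a := by
  classical
  haveI := Fintype.ofFinite α
  haveI : Fact p.Prime := ⟨hp⟩
  let g : Function.End α := f
  have h1 : g ^ p ^ 1 = 1 := by
    rw [pow_one]
    funext a
    have : ∀ n : ℕ, ∀ a, (g ^ n) a = f^[n] a := by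
      intro n
      induction n with
      | zero => intro a; rfl
      | succ n ih =>
        intro a
        rw [pow_succ, Function.iterate_succ_apply, ← ih]
        rfl
    rw [this, hf]
    rfl
  have h2 := Equiv.Perm.card_fixedPoints_modEq h1
  by_contra hno
  push Not at hno
  have h3 : Fintype.card (Function.fixedPoints g) = 0 := by
    rw [Fintype.card_eq_zero_iff]
    exact ⟨fun a => hno a.1 a.2⟩
  rw [h3] at h2
  apply hc
  rw [Nat.card_eq_fintype_card]
  exact (Nat.modEq_zero_iff_dvd).1 h2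

section twist

variable {H : Type u} [Group H] [Finite H]

/-- `A` `x`-invariant, `D` normal `x`-invariant. Fixed points lift. -/
theorem lift_fixed {p : ℕ} (hp : p.Prime) (hc : (Nat.card H).Coprime p) {x : MulAut H}
    (hxp : x ^ p = 1) {A D : Subgroup H} (hA : InvS x A) (hD : InvS x D)
    {y : H} (hy : y ∈ A) (hy' : y⁻¹ * x y ∈ D) :
    ∃ y' ∈ A, x y' = y' ∧ y⁻¹ * y' ∈ D := by
  let α := ↥(A ⊓ D)
  have hfmem : ∀ d : α, y⁻¹ * x (y * d.1) ∈ A ⊓ D := by
    intro d
    rw [map_mul, ← mul_assoc]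
    exact ⟨A.mul_mem (A.mul_mem (A.inv_mem hy) (hA _ hy)) (hA _ d.2.1),
      D.mul_mem hy' (hD _ d.2.2)⟩
  let f : α → α := fun d => ⟨y⁻¹ * x (y * d.1), hfmem d⟩
  have hiter : ∀ n : ℕ, ∀ d : α, y * (f^[n] d).1 = (x ^ n) (y * d.1) := by
    intro n
    induction n with
    | zero => intro d; simp
    | succ n ih =>
      intro d
      rw [Function.iterate_succ_apply', pow_succ', MulAut.mul_apply, ← ih]
      simp [f]
  have hf : f^[p] = id := by
    funext d
    apply Subtype.ext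
    have := hiter p d
    rw [hxp] at this
    simpa using this
  have hdvd : ¬ p ∣ Nat.card α := by
    intro h
    have h1 : Nat.card α ∣ Nat.card H := Subgroup.card_subgroup_dvd_card _
    have h2 := Nat.dvd_gcd (h.trans h1) (dvd_refl p)
    rw [hc] at h2
    exact hp.one_lt.ne' (Nat.dvd_one.1 h2)
  obtain ⟨d, hd⟩ := fp_lemma hp f hf hdvd
  refine ⟨y * d.1, A.mul_mem hy d.2.1, ?_, ?_⟩
  · have := congrArg Subtype.val hd
    simp only [f] at this
    have h2 : y * (y⁻¹ * x (y * d.1)) = y * d.1 := by rw [this]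
    simpa using h2
  · simpa using d.2.2

/-- the twisted action -/
def Tw (_σ : MulAut H) : Type u := H

instance tw_finite (σ : MulAut H) : Finite (Tw σ) := inferInstanceAs (Finite H)

/-- the twisted action -/
def twSmul (σ : MulAut H) (g : H) (a : H) : H := g * a * (σ g)⁻¹

/-- coercion -/
def toH {σ : MulAut H} (a : Tw σ) : H := a

/-- coercion -/
def ofH (σ : MulAut H) (a : H) : Tw σ := a

instance twAction (σ : MulAut H) : MulAction H (Tw σ) where
  smul g a := ofH σ (twSmul σ g (toH a))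
  one_smul a := by
    show ofH σ (twSmul σ 1 (toH a)) = a
    simp only [twSmul, map_one, inv_one, one_mul, mul_one]
    rfl
  mul_smul g k a := by
    show ofH σ (twSmul σ (g * k) (toH a)) = ofH σ (twSmul σ g (twSmul σ k (toH a)))
    congr 1
    simp only [twSmul, map_mul, mul_inv_rev]
    group

/-- a generic fixed point lemma on an orbit -/
theorem orbit_fp {G X : Type*} [Group G] [Finite G] [Finite X] [MulAction G X] {p : ℕ}
    (hp : p.Prime) (hc : (Nat.card G).Coprime p) (a : X) (f : X → X) (hf : f^[p] = id)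
    (hfo : ∀ y ∈ MulAction.orbit G a, f y ∈ MulAction.orbit G a) :
    ∃ y ∈ MulAction.orbit G a, f y = y := by
  let O := MulAction.orbit G a
  let g : O → O := fun y => ⟨f y.1, hfo y.1 y.2⟩
  have hiter : ∀ n : ℕ, ∀ y : O, ((g^[n] y).1 : X) = f^[n] y.1 := by
    intro n
    induction n with
    | zero => intro y; rfl
    | succ n ih =>
      intro y
      rw [Function.iterate_succ_apply', Function.iterate_succ_apply', ← ih]
  have hg : g^[p] = id := by
    funext y
    apply Subtype.ext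
    rw [hiter, hf]
    rfl
  have hne : Nonempty O := ⟨⟨a, MulAction.mem_orbit_self a⟩⟩
  have hdvd : ¬ p ∣ Nat.card O := by
    intro h
    have h0 : Nat.card O = (MulAction.stabilizer G a).index :=
      (MulAction.index_stabilizer G a).symm
    have h1 : Nat.card O ∣ Nat.card G := by
      rw [h0]
      exact Subgroup.index_dvd_card _
    have h2 := Nat.dvd_gcd (h.trans h1) (dvd_refl p)
    rw [hc] at h2
    exact hp.one_lt.ne' (Nat.dvd_one.1 h2)
  obtain ⟨y, hy⟩ := fp_lemma hp g hg hdvd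
  exact ⟨y.1, y.2, congrArg Subtype.val hy⟩

/-- Twisted conjugacy classes of `σ` of order dividing `p`, on a `σ`-invariant subgroup `A`,
contain `σ`-fixed elements. -/
theorem twisted {p : ℕ} (hp : p.Prime) (hc : (Nat.card H).Coprime p) {σ : MulAut H}
    (hσp : σ ^ p = 1) {A : Subgroup H} (hA : InvS σ A) {d : H} (hd : d ∈ A) :
    ∃ g ∈ A, ∃ c ∈ A, σ c = c ∧ d = g * c * (σ g)⁻¹ := by
  have hcA : (Nat.card A).Coprime p :=
    Nat.Coprime.coprime_dvd_left (Subgroup.card_subgroup_dvd_card A) hc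
  let d' : Tw σ := ofH σ d
  let f : Tw σ → Tw σ := fun a => ofH σ (σ (toH a))
  have hiter : ∀ n : ℕ, ∀ a : Tw σ, toH (f^[n] a) = (σ ^ n) (toH a) := by
    intro n
    induction n with
    | zero => intro a; rfl
    | succ n ih =>
      intro a
      rw [Function.iterate_succ_apply', pow_succ', MulAut.mul_apply, ← ih]
      rfl
  have hf : f^[p] = id := by
    funext a
    have := hiter p a
    rw [hσp] at this
    exact this
  have horb : ∀ a ∈ MulAction.orbit A d', ∃ g ∈ A, toH a = g * d * (σ g)⁻¹ := by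
    rintro _ ⟨g, rfl⟩
    exact ⟨g.1, g.2, rfl⟩
  have hfo : ∀ a ∈ MulAction.orbit A d', f a ∈ MulAction.orbit A d' := by
    intro a ha
    obtain ⟨g, hg, hga⟩ := horb a ha
    refine ⟨⟨σ g * d⁻¹, A.mul_mem (hA _ hg) (A.inv_mem hd)⟩, ?_⟩
    show ofH σ (twSmul σ (σ g * d⁻¹) d) = ofH σ (σ (toH a))
    rw [hga]
    congr 1
    simp only [twSmul, map_mul, map_inv, mul_inv_rev, inv_inv]
    group
  obtain ⟨a, ha, hfa⟩ := orbit_fp hp hcA d' f hf hfo
  obtain ⟨g, hg, hga⟩ := horb a ha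
  have hfix : σ (toH a) = toH a := hfa
  refine ⟨g⁻¹, A.inv_mem hg, toH a, ?_, hfix, ?_⟩
  · rw [hga]
    exact A.mul_mem (A.mul_mem hg hd) (A.inv_mem (hA _ hg))
  · rw [hga, map_inv, inv_inv]
    group

end twist

section reduce

variable {H : Type u} [Group H]

theorem R_le_DK_R [Finite H] {p : ℕ} (hc : (Nat.card H).Coprime p) {x : MulAut H}
    (hxp : x ^ p = 1) (h : H) : R x h ≤ DK x (R x h) := by
  have hc1 : h⁻¹ * x h ∈ R x h := by
    have := mem_R_self x h 1
    rwa [pow_one] at this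
  have claim : ∀ i : ℕ, ∃ a ∈ DK x (R x h), h⁻¹ * (x ^ i) h = (h⁻¹ * x h) ^ i * a := by
    intro i
    induction i with
    | zero => exact ⟨1, Subgroup.one_mem _, by simp⟩
    | succ i ih =>
      obtain ⟨a, ha, hia⟩ := ih
      refine ⟨((h⁻¹ * x h)⁻¹ * a * (h⁻¹ * x h)⁻¹⁻¹) * ((h⁻¹ * x h)⁻¹ * (x ^ i) (h⁻¹ * x h)),
        Subgroup.mul_mem _ (DK_conj x (Subgroup.inv_mem _ hc1) ha) (mem_DK hc1 i), ?_⟩
      rw [c_succ, hia, pow_succ]
      group
  have hc2 : h⁻¹ * x h ∈ DK x (R x h) := by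
    obtain ⟨a, ha, hia⟩ := claim p
    rw [hxp] at hia
    have h1 : (h⁻¹ * x h) ^ p = a⁻¹ := by
      have h2 : h⁻¹ * (1 : MulAut H) h = 1 := by simp
      rw [h2] at hia
      exact eq_inv_of_mul_eq_one_left hia.symm
    apply mem_of_pow_mem hc
    rw [h1]
    exact Subgroup.inv_mem _ ha
  have hc3 : ∀ i : ℕ, (x ^ i) (h⁻¹ * x h) ∈ DK x (R x h) := by
    intro i
    have : (x ^ i) (h⁻¹ * x h) = (h⁻¹ * x h) * ((h⁻¹ * x h)⁻¹ * (x ^ i) (h⁻¹ * x h)) := by group
    rw [this]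
    exact Subgroup.mul_mem _ hc2 (mem_DK hc1 i)
  have hc4 : ∀ i : ℕ, h⁻¹ * (x ^ i) h ∈ DK x (R x h) := by
    intro i
    induction i with
    | zero => simp [Subgroup.one_mem]
    | succ i ih =>
      rw [c_succ]
      exact Subgroup.mul_mem _ ih (hc3 i)
  apply (Subgroup.closure_le _).2
  rintro _ ⟨i, rfl⟩
  exact hc4 i

theorem DK_idem [Finite H] {p : ℕ} (hc : (Nat.card H).Coprime p) {x : MulAut H}
    (hxp : x ^ p = 1) : DK x (DK x ⊤) = DK x ⊤ := by
  apply le_antisymm (DK_mono x le_top)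
  apply (Subgroup.closure_le _).2
  rintro _ ⟨k, -, i, rfl⟩
  have h1 : R x k ≤ DK x ⊤ := R_le_DK x k (Subgroup.mem_top k)
  exact DK_mono x h1 (R_le_DK_R hc hxp k (mem_R_self x k i))

theorem mem_W {x : MulAut H} {h y : H} (hy : y ∈ R x h) (hfix : x y = y) : y ∈ W x :=
  Subgroup.mem_iSup_of_mem h ⟨hy, hfix⟩

theorem W_le_Fx (x : MulAut H) : W x ≤ Fx x := iSup_le fun _ => inf_le_right

theorem fix_of_W {x : MulAut H} {y : H} (hy : y ∈ W x) : x y = y := W_le_Fx x hy

theorem R_conj {x : MulAut H} {z : H} (hz : x z = z) {h y : H} (hy : y ∈ R x h) :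
    z * y * z⁻¹ ∈ R x (z * h * z⁻¹) := by
  have : R x h ≤ (R x (z * h * z⁻¹)).comap (MulAut.conj z).toMonoidHom := by
    apply (Subgroup.closure_le _).2
    rintro _ ⟨i, rfl⟩
    show (MulAut.conj z).toMonoidHom (h⁻¹ * (x ^ i) h) ∈ R x (z * h * z⁻¹)
    have e : (MulAut.conj z).toMonoidHom (h⁻¹ * (x ^ i) h) =
        (z * h * z⁻¹)⁻¹ * (x ^ i) (z * h * z⁻¹) := by
      simp only [MulEquiv.toMonoidHom_eq_coe, MonoidHom.coe_coe, MulAut.conj_apply, map_mul,
        map_inv, pow_fixed hz]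
    rw [e]
    exact mem_R_self _ _ _
  exact this hy

theorem W_conj {x : MulAut H} {z : H} (hz : x z = z) {y : H} (hy : y ∈ W x) :
    z * y * z⁻¹ ∈ W x := by
  have : W x ≤ (W x).comap (MulAut.conj z).toMonoidHom := by
    apply iSup_le
    rintro h y ⟨hy1, hy2⟩
    show z * y * z⁻¹ ∈ W x
    refine mem_W (R_conj hz hy1) ?_
    have hy2' : x y = y := hy2
    simp [hz, hy2']
  exact this hy

/-! ### Restriction to invariant subgroups -/

/-- restriction of `x` to an invariant subgroup. -/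
def restr (x : MulAut H) (K : Subgroup H) (hK : InvS x K) (hK' : InvS x⁻¹ K) : MulAut K where
  toFun y := ⟨x y, hK _ y.2⟩
  invFun y := ⟨x⁻¹ y, hK' _ y.2⟩
  left_inv y := by
    apply Subtype.ext
    exact MulAut.inv_apply_self H x y.1
  right_inv y := by
    apply Subtype.ext
    exact MulAut.apply_inv_self H x y.1
  map_mul' a b := by
    apply Subtype.ext
    exact map_mul x a.1 b.1

theorem restr_coe (x : MulAut H) (K : Subgroup H) (hK : InvS x K) (hK' : InvS x⁻¹ K) (y : K) :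
    ((restr x K hK hK' y : K) : H) = x y := rfl

theorem restr_pow (x : MulAut H) (K : Subgroup H) (hK : InvS x K) (hK' : InvS x⁻¹ K) (i : ℕ)
    (y : K) : (((restr x K hK hK') ^ i) y : K) = (x ^ i) (y : H) := by
  induction i with
  | zero => simp
  | succ i ih =>
    rw [pow_succ', MulAut.mul_apply, restr_coe, ih, pow_succ', MulAut.mul_apply]

theorem restr_pow_eq_one (x : MulAut H) (K : Subgroup H) (hK : InvS x K) (hK' : InvS x⁻¹ K)
    {p : ℕ} (hxp : x ^ p = 1) : (restr x K hK hK') ^ p = 1 := by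
  ext y
  rw [restr_pow, hxp]
  rfl

theorem restr_R (x : MulAut H) (K : Subgroup H) (hK : InvS x K) (hK' : InvS x⁻¹ K) (h : K)
    {y : K} (hy : y ∈ R (restr x K hK hK') h) : (y : H) ∈ R x (h : H) := by
  have : R (restr x K hK hK') h ≤ (R x (h : H)).comap K.subtype := by
    apply (Subgroup.closure_le _).2
    rintro _ ⟨i, rfl⟩
    show ((h⁻¹ * ((restr x K hK hK') ^ i) h : K) : H) ∈ R x (h : H)
    rw [Subgroup.coe_mul, restr_pow, Subgroup.coe_inv]
    exact mem_R_self x _ i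
  exact this hy

theorem restr_W (x : MulAut H) (K : Subgroup H) (hK : InvS x K) (hK' : InvS x⁻¹ K)
    {y : K} (hy : y ∈ W (restr x K hK hK')) : (y : H) ∈ W x := by
  have : W (restr x K hK hK') ≤ (W x).comap K.subtype := by
    apply iSup_le
    rintro h y ⟨hy1, hy2⟩
    exact mem_W (restr_R x K hK hK' h hy1) (congrArg Subtype.val hy2)
  exact this hy

theorem restr_DK (x : MulAut H) (K : Subgroup H) (hK : InvS x K) (hK' : InvS x⁻¹ K)
    {y : H} (hy : y ∈ DK x K) : ∃ y' ∈ DK (restr x K hK hK') ⊤, (y' : H) = y := by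
  have : DK x K ≤ (DK (restr x K hK hK') ⊤).map K.subtype := by
    apply (Subgroup.closure_le _).2
    rintro _ ⟨k, hk, i, rfl⟩
    refine ⟨(⟨k, hk⟩ : K)⁻¹ * ((restr x K hK hK') ^ i) ⟨k, hk⟩, mem_DK (Subgroup.mem_top _) i, ?_⟩
    simp only [Subgroup.subtype_apply, Subgroup.coe_mul, Subgroup.coe_inv, restr_pow]
  obtain ⟨y', h1, h2⟩ := this hy
  exact ⟨y', h1, h2⟩

/-! ### Quotients -/

theorem map_eq_of_inv {x : MulAut H} {D : Subgroup H} (hD : InvS x D) (hD' : InvS x⁻¹ D) :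
    D.map (x : H →* H) = D := by
  apply le_antisymm
  · rintro _ ⟨y, hy, rfl⟩
    exact hD _ hy
  · intro y hy
    exact ⟨x⁻¹ y, hD' _ hy, MulAut.apply_inv_self H x y⟩

/-- The automorphism induced on a quotient. -/
def xbar (x : MulAut H) (D : Subgroup H) [D.Normal] (hD : InvS x D) (hD' : InvS x⁻¹ D) :
    MulAut (H ⧸ D) :=
  QuotientGroup.congr D D x (map_eq_of_inv hD hD')

theorem xbar_mk (x : MulAut H) (D : Subgroup H) [D.Normal] (hD : InvS x D) (hD' : InvS x⁻¹ D)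
    (y : H) : xbar x D hD hD' (y : H ⧸ D) = ((x y : H) : H ⧸ D) := rfl

theorem xbar_pow (x : MulAut H) (D : Subgroup H) [D.Normal] (hD : InvS x D) (hD' : InvS x⁻¹ D)
    (i : ℕ) (y : H) : ((xbar x D hD hD') ^ i) (y : H ⧸ D) = (((x ^ i) y : H) : H ⧸ D) := by
  induction i with
  | zero => rfl
  | succ i ih =>
    rw [pow_succ', MulAut.mul_apply, ih, xbar_mk, pow_succ', MulAut.mul_apply]

theorem xbar_pow_eq_one (x : MulAut H) (D : Subgroup H) [D.Normal] (hD : InvS x D)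
    (hD' : InvS x⁻¹ D) {p : ℕ} (hxp : x ^ p = 1) : (xbar x D hD hD') ^ p = 1 := by
  ext y
  induction y using QuotientGroup.induction_on with
  | H y =>
    rw [xbar_pow, hxp]
    rfl

theorem xbar_R_le (x : MulAut H) (D : Subgroup H) [D.Normal] (hD : InvS x D) (hD' : InvS x⁻¹ D)
    (h : H) : R (xbar x D hD hD') (h : H ⧸ D) ≤ (R x h).map (QuotientGroup.mk' D) := by
  apply (Subgroup.closure_le _).2
  rintro _ ⟨i, rfl⟩
  refine ⟨h⁻¹ * (x ^ i) h, mem_R_self x h i, ?_⟩
  rw [xbar_pow]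
  rfl

theorem xbar_W_le [Finite H] {p : ℕ} (hp : p.Prime) (hc : (Nat.card H).Coprime p) {x : MulAut H}
    (hxp : x ^ p = 1) (D : Subgroup H) [D.Normal] (hD : InvS x D) (hD' : InvS x⁻¹ D) :
    W (xbar x D hD hD') ≤ (W x).map (QuotientGroup.mk' D) := by
  apply iSup_le
  intro hb
  induction hb using QuotientGroup.induction_on with
  | H h =>
    rintro _ ⟨hy1, hy2⟩
    obtain ⟨y, hy, rfl⟩ := xbar_R_le x D hD hD' h hy1
    have hy3 : y⁻¹ * x y ∈ D := by
      have hy2' : xbar x D hD hD' ((y : H ⧸ D)) = (y : H ⧸ D) := hy2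
      rw [xbar_mk] at hy2'
      exact QuotientGroup.eq.1 (hy2'.symm)
    obtain ⟨y', hy'1, hy'2, hy'3⟩ := lift_fixed hp hc hxp (R_inv x h) hD hy hy3
    refine ⟨y', mem_W hy'1 hy'2, ?_⟩
    exact (QuotientGroup.eq.2 hy'3).symm

theorem xbar_DK_top (x : MulAut H) (D : Subgroup H) [D.Normal] (hD : InvS x D)
    (hD' : InvS x⁻¹ D) (htop : DK x ⊤ = ⊤) : DK (xbar x D hD hD') ⊤ = ⊤ := by
  rw [eq_top_iff]
  intro yb _
  induction yb using QuotientGroup.induction_on with
  | H y =>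
    have hy : y ∈ DK x ⊤ := by rw [htop]; trivial
    have : DK x ⊤ ≤ (DK (xbar x D hD hD') ⊤).comap (QuotientGroup.mk' D) := by
      apply (Subgroup.closure_le _).2
      rintro _ ⟨k, -, i, rfl⟩
      show ((k⁻¹ * (x ^ i) k : H) : H ⧸ D) ∈ DK (xbar x D hD hD') ⊤
      have e : ((k⁻¹ * (x ^ i) k : H) : H ⧸ D) =
          (k : H ⧸ D)⁻¹ * ((xbar x D hD hD') ^ i) (k : H ⧸ D) := by
        rw [xbar_pow]
        rfl
      rw [e]
      exact mem_DK (Subgroup.mem_top _) i
    exact this hy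

end reduce

/-- The induction hypothesis. -/
def IHyp (p n : ℕ) : Prop :=
  ∀ (H' : Type u) [Group H'] [Finite H'] [Group.IsSolvable H'] (x' : MulAut H'),
    Nat.card H' < n → (Nat.card H').Coprime p → x' ^ p = 1 → DK x' ⊤ ⊓ Fx x' ≤ W x'

section reduce2

variable {H : Type u} [Group H] [Finite H] [Group.IsSolvable H]

theorem hyp_sub {p : ℕ} (hp : p.Prime) (ih : IHyp.{u} p (Nat.card H))
    (hc : (Nat.card H).Coprime p) {x : MulAut H} (hxp : x ^ p = 1)
    {K : Subgroup H} (hK : InvS x K) (hne : K ≠ ⊤) {y : H} (hy : y ∈ DK x K) (hfix : x y = y) :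
    y ∈ W x := by
  have hK' : InvS x⁻¹ K := hK.inv hp.pos hxp
  have hlt : Nat.card K < Nat.card H := by
    apply lt_of_le_of_ne (Subgroup.card_le_card_group K)
    intro h
    exact hne (Subgroup.eq_top_of_card_eq K h)
  have hcK : (Nat.card K).Coprime p :=
    Nat.Coprime.coprime_dvd_left (Subgroup.card_subgroup_dvd_card K) hc
  have := ih K (restr x K hK hK') hlt hcK (restr_pow_eq_one x K hK hK' hxp)
  obtain ⟨y', hy'1, rfl⟩ := restr_DK x K hK hK' hy
  exact restr_W x K hK hK' (this ⟨hy'1, Subtype.ext hfix⟩)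

theorem hyp_quot {p : ℕ} (hp : p.Prime) (ih : IHyp.{u} p (Nat.card H))
    (hc : (Nat.card H).Coprime p) {x : MulAut H} (hxp : x ^ p = 1) (htop : DK x ⊤ = ⊤)
    (hbad : ¬ Fx x ≤ W x) (D : Subgroup H) [D.Normal] (hD : InvS x D) (hne : D ≠ ⊥) :
    ¬ ∀ y ∈ D, x y = y → y ∈ W x := by
  intro hall
  apply hbad
  have hD' : InvS x⁻¹ D := hD.inv hp.pos hxp
  have hlt : Nat.card (H ⧸ D) < Nat.card H := by
    have h1 := Subgroup.card_eq_card_quotient_mul_card_subgroup D
    have h2 : 1 < Nat.card D := (Subgroup.one_lt_card_iff_ne_bot D).2 hne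
    have h3 : 0 < Nat.card (H ⧸ D) := Nat.card_pos
    rw [h1]
    nlinarith
  have hcq : (Nat.card (H ⧸ D)).Coprime p := by
    apply Nat.Coprime.coprime_dvd_left _ hc
    exact Subgroup.card_quotient_dvd_card D
  have h1 := ih (H ⧸ D) (xbar x D hD hD') hlt hcq (xbar_pow_eq_one x D hD hD' hxp)
  rw [xbar_DK_top x D hD hD' htop, top_inf_eq] at h1
  intro c hcfix
  have hc' : x c = c := hcfix
  have h2 : (c : H ⧸ D) ∈ Fx (xbar x D hD hD') := by
    show xbar x D hD hD' (c : H ⧸ D) = c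
    rw [xbar_mk, hc']
  obtain ⟨w, hw, hwc⟩ := xbar_W_le hp hc hxp D hD hD' (h1 h2)
  have hwc' : (w : H ⧸ D) = c := hwc
  have hd : w⁻¹ * c ∈ D := QuotientGroup.eq.1 hwc'
  have hwfix : x w = w := fix_of_W hw
  have := hall _ hd (by simp [hwfix, hc'])
  have e : c = w * (w⁻¹ * c) := by group
  rw [e]
  exact (W x).mul_mem hw this

end reduce2

end Cfsg.Agent.Flavell
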