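import Mathlib
import Cfsg.Agent.Lib.FlavellA

set_option autoImplicit false

namespace Cfsg.Agent.Flavell

universe u

/-- The standing hypotheses of the minimal counterexample. -/
structure Ctx {H : Type u} [Group H] (x : MulAut H) (p : ℕ) : Prop where
  prime : p.Prime
  odd : p ≠ 2
  cop : (Nat.card H).Coprime p
  xp : x ^ p = 1
  top : DK x ⊤ = ⊤
  hsub : ∀ K : Subgroup H, InvS x K → K ≠ ⊤ → ∀ y ∈ DK x K, x y = y → y ∈ W x
  hquot : ∀ D : Subgroup H, D.Normal → InvS x D → D ≠ ⊥ → ¬ ∀ y ∈ D, x y = y → y ∈ W x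

/-- abelian normal invariant subgroups -/
structure AbV {H : Type u} [Group H] (x : MulAut H) (V : Subgroup H) : Prop where
  normal : V.Normal
  inv : InvS x V
  ab : ∀ a ∈ V, ∀ b ∈ V, a * b = b * a

section PP

variable {H : Type u} [Group H]

/-- partial norms -/
def PP (x : MulAut H) (u : H) : ℕ → H
  | 0 => 1
  | k + 1 => PP x u k * (x ^ k) u

theorem PP_zero (x : MulAut H) (u : H) : PP x u 0 = 1 := rfl

theorem PP_succ (x : MulAut H) (u : H) (k : ℕ) : PP x u (k + 1) = PP x u k * (x ^ k) u := rfl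

theorem PP_succ' (x : MulAut H) (u : H) (k : ℕ) : PP x u (k + 1) = u * x (PP x u k) := by
  induction k with
  | zero => simp [PP]
  | succ k ih =>
    calc PP x u (k + 2) = PP x u (k + 1) * (x ^ (k + 1)) u := rfl
      _ = u * x (PP x u k) * (x ^ (k + 1)) u := by rw [ih]
      _ = u * x (PP x u k * (x ^ k) u) := by
        rw [map_mul, pow_succ' x k, MulAut.mul_apply, mul_assoc]
      _ = u * x (PP x u (k + 1)) := rfl

theorem PP_mem {x : MulAut H} {X : Subgroup H} (hX : InvS x X) {u : H} (hu : u ∈ X) (k : ℕ) :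
    PP x u k ∈ X := by
  induction k with
  | zero => exact X.one_mem
  | succ k ih =>
    rw [PP_succ]
    exact X.mul_mem ih (hX.pow k hu)

theorem PP_x (x : MulAut H) (u : H) (k : ℕ) : PP x (x u) k = x (PP x u k) := by
  induction k with
  | zero => simp [PP]
  | succ k ih =>
    rw [PP_succ, ih, PP_succ, map_mul]
    congr 1
    rw [← MulAut.mul_apply, ← MulAut.mul_apply, ← pow_succ, ← pow_succ']

theorem PP_fix {x : MulAut H} {u : H} (hu : x u = u) (k : ℕ) : PP x u k = u ^ k := by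
  induction k with
  | zero => simp [PP]
  | succ k ih => rw [PP_succ, ih, pow_fixed hu, pow_succ]

theorem PP_conj {x : MulAut H} {z : H} (hz : x z = z) (y : H) (k : ℕ) :
    PP x (z * y * z⁻¹) k = z * PP x y k * z⁻¹ := by
  induction k with
  | zero => simp [PP]
  | succ k ih =>
    rw [PP_succ, ih, PP_succ, map_mul, map_mul, map_inv, pow_fixed hz]
    group

variable {x : MulAut H} {V : Subgroup H}

theorem PP_mul (hV : AbV x V) {a b : H} (ha : a ∈ V) (hb : b ∈ V) (k : ℕ) :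
    PP x (a * b) k = PP x a k * PP x b k := by
  induction k with
  | zero => simp [PP]
  | succ k ih =>
    rw [PP_succ, ih, PP_succ, PP_succ, map_mul]
    have := hV.ab _ (PP_mem hV.inv hb k) _ (hV.inv.pow k ha)
    calc PP x a k * PP x b k * ((x ^ k) a * (x ^ k) b)
        = PP x a k * (PP x b k * (x ^ k) a) * (x ^ k) b := by group
      _ = PP x a k * ((x ^ k) a * PP x b k) * (x ^ k) b := by rw [this]
      _ = _ := by group

theorem PP_one (x : MulAut H) (k : ℕ) : PP x (1 : H) k = 1 := by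
  induction k with
  | zero => rfl
  | succ k ih => rw [PP_succ, ih, map_one, one_mul]

theorem PP_inv (hV : AbV x V) {a : H} (ha : a ∈ V) (k : ℕ) :
    PP x a⁻¹ k = (PP x a k)⁻¹ := by
  have := PP_mul hV (V.inv_mem ha) ha k
  rw [inv_mul_cancel, PP_one] at this
  exact eq_inv_of_mul_eq_one_left this.symm

theorem PP_p_fix (hV : AbV x V) {p : ℕ} (hxp : x ^ p = 1) {u : H} (hu : u ∈ V) :
    x (PP x u p) = PP x u p := by
  have h1 := PP_succ' x u p
  rw [PP_succ, hxp] at h1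
  have h2 : (1 : MulAut H) u = u := rfl
  rw [h2, hV.ab _ (PP_mem hV.inv hu p) _ hu] at h1
  exact (mul_left_cancel h1).symm

theorem PP_pow (x : MulAut H) (u : H) (k i : ℕ) : PP x ((x ^ i) u) k = (x ^ i) (PP x u k) := by
  induction i with
  | zero => simp
  | succ i ih =>
    rw [pow_succ', MulAut.mul_apply, PP_x, ih, MulAut.mul_apply]

theorem PP_DK (hV : AbV x V) {p : ℕ} (hxp : x ^ p = 1) {y : H} (hy : y ∈ DK x V) :
    PP x y p = 1 := by
  have key : y ∈ V ∧ PP x y p = 1 := by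
    induction hy using Subgroup.closure_induction with
    | mem y hy =>
      obtain ⟨k, hk, i, rfl⟩ := hy
      have hk2 : (x ^ i) k ∈ V := hV.inv.pow i hk
      refine ⟨V.mul_mem (V.inv_mem hk) hk2, ?_⟩
      rw [PP_mul hV (V.inv_mem hk) hk2, PP_inv hV hk, PP_pow, pow_fixed (PP_p_fix hV hxp hk)]
      simp
    | one => exact ⟨V.one_mem, PP_one x p⟩
    | mul a b _ _ ha hb =>
      refine ⟨V.mul_mem ha.1 hb.1, ?_⟩
      rw [PP_mul hV ha.1 hb.1, ha.2, hb.2, one_mul]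
    | inv a _ ha =>
      refine ⟨V.inv_mem ha.1, ?_⟩
      rw [PP_inv hV ha.1, ha.2, inv_one]
  exact key.2

/-- The subgroup `B`. -/
def BB (hV : AbV x V) (p : ℕ) : Subgroup H where
  carrier := {y | y ∈ V ∧ PP x y p ∈ W x}
  mul_mem' := by
    rintro a b ⟨ha, ha'⟩ ⟨hb, hb'⟩
    refine ⟨V.mul_mem ha hb, ?_⟩
    rw [PP_mul hV ha hb]
    exact (W x).mul_mem ha' hb'
  one_mem' := ⟨V.one_mem, by rw [PP_one]; exact (W x).one_mem⟩
  inv_mem' := by
    rintro a ⟨ha, ha'⟩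
    refine ⟨V.inv_mem ha, ?_⟩
    rw [PP_inv hV ha]
    exact (W x).inv_mem ha'

theorem mem_BB (hV : AbV x V) (p : ℕ) {y : H} : y ∈ BB hV p ↔ y ∈ V ∧ PP x y p ∈ W x := Iff.rfl

theorem BB_le (hV : AbV x V) (p : ℕ) : BB hV p ≤ V := fun _ h => h.1

theorem BB_inv (hV : AbV x V) {p : ℕ} (hxp : x ^ p = 1) : InvS x (BB hV p) := by
  rintro y ⟨hy, hy'⟩
  refine ⟨hV.inv _ hy, ?_⟩
  rw [PP_x, PP_p_fix hV hxp hy]
  exact hy'

theorem BB_of_DK (hV : AbV x V) {p : ℕ} (hxp : x ^ p = 1) {y : H} (hy : y ∈ DK x V) :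
    y ∈ BB hV p := by
  refine ⟨DK_le hV.inv hy, ?_⟩
  rw [PP_DK hV hxp hy]
  exact (W x).one_mem

theorem BB_of_W (hV : AbV x V) (p : ℕ) {y : H} (hy : y ∈ W x) (hy' : y ∈ V) : y ∈ BB hV p := by
  refine ⟨hy', ?_⟩
  rw [PP_fix (fix_of_W hy)]
  exact (W x).pow_mem hy p

theorem BB_fix [Finite H] (hV : AbV x V) {p : ℕ} (hc : (Nat.card H).Coprime p) {y : H}
    (hy : y ∈ BB hV p) (hfix : x y = y) : y ∈ W x := by
  have := hy.2
  rw [PP_fix hfix] at this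
  exact mem_of_pow_mem hc this

theorem BB_conj (hV : AbV x V) {p : ℕ} (hxp : x ^ p = 1) {z : H} (hz : x z = z) {y : H}
    (hy : y ∈ BB hV p) : z * y * z⁻¹ ∈ BB hV p := by
  haveI := hV.normal
  refine ⟨Subgroup.Normal.conj_mem inferInstance _ hy.1 _, ?_⟩
  rw [PP_conj hz]
  exact W_conj hz hy.2

end PP

section SS

variable {H : Type u} [Group H]

/-- the subgroup of elements `t` acting trivially on `V / B`. -/
def SS (V B : Subgroup H) (hVn : V.Normal) (hB : B ≤ V) : Subgroup H where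
  carrier := {t | ∀ v ∈ V, t * v * t⁻¹ * v⁻¹ ∈ B}
  mul_mem' := by
    intro t s ht hs v hv
    have h1 := hs v hv
    have h2 := ht _ (hB h1)
    have h3 := ht v hv
    have h4 : t * (s * v * s⁻¹ * v⁻¹) * t⁻¹ ∈ B := by
      have := B.mul_mem h2 h1
      have e : t * (s * v * s⁻¹ * v⁻¹) * t⁻¹ * (s * v * s⁻¹ * v⁻¹)⁻¹ * (s * v * s⁻¹ * v⁻¹) =
          t * (s * v * s⁻¹ * v⁻¹) * t⁻¹ := by group
      rwa [e] at this
    have := B.mul_mem h4 h3
    have e : t * (s * v * s⁻¹ * v⁻¹) * t⁻¹ * (t * v * t⁻¹ * v⁻¹) =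
        t * s * v * (t * s)⁻¹ * v⁻¹ := by group
    rwa [e] at this
  one_mem' := by
    intro v _
    simp [B.one_mem]
  inv_mem' := by
    intro t ht v hv
    have hw : t⁻¹ * v * t⁻¹⁻¹ ∈ V := hVn.conj_mem v hv t⁻¹
    have h1 := B.inv_mem (ht _ hw)
    have e : (t * (t⁻¹ * v * t⁻¹⁻¹) * t⁻¹ * (t⁻¹ * v * t⁻¹⁻¹)⁻¹)⁻¹ = t⁻¹ * v * t⁻¹⁻¹ * v⁻¹ := by
      group
    rwa [e] at h1

theorem mem_SS {V B : Subgroup H} {hVn : V.Normal} {hB : B ≤ V} {t : H} :
    t ∈ SS V B hVn hB ↔ ∀ v ∈ V, t * v * t⁻¹ * v⁻¹ ∈ B := Iff.rfl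

theorem SS_conj_mem {V B : Subgroup H} {hVn : V.Normal} {hB : B ≤ V} {t : H}
    (ht : t ∈ SS V B hVn hB) {y : H} (hy : y ∈ B) : t * y * t⁻¹ ∈ B := by
  have := B.mul_mem (ht _ (hB hy)) hy
  simpa using this

/-- conjugation of a subgroup -/
def BT (B : Subgroup H) (g : H) : Subgroup H := B.comap (MulAut.conj g⁻¹).toMonoidHom

theorem mem_BT {B : Subgroup H} {g y : H} : y ∈ BT B g ↔ g⁻¹ * y * g ∈ B := by
  show (MulAut.conj g⁻¹).toMonoidHom y ∈ B ↔ _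
  simp

theorem BT_le {V B : Subgroup H} (hVn : V.Normal) (hB : B ≤ V) (g : H) : BT B g ≤ V := by
  intro y hy
  have h1 := hB (mem_BT.1 hy)
  have h2 := hVn.conj_mem _ h1 g
  have e : g * (g⁻¹ * y * g) * g⁻¹ = y := by group
  rwa [e] at h2

theorem SS_invS {x : MulAut H} {p : ℕ} (hp : 0 < p) (hxp : x ^ p = 1) {V B : Subgroup H}
    {hVn : V.Normal} {hB : B ≤ V} (hVi : InvS x V) (hBi : InvS x B) :
    InvS x (SS V B hVn hB) := by
  intro t ht v hv
  have hv' : x⁻¹ v ∈ V := hVi.inv hp hxp _ hv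
  have := hBi _ (ht _ hv')
  have e : x (t * x⁻¹ v * t⁻¹ * (x⁻¹ v)⁻¹) = x t * v * (x t)⁻¹ * v⁻¹ := by
    simp only [map_mul, map_inv, MulAut.apply_inv_self]
  rwa [e] at this

end SS

section fix

variable {H : Type u} [Group H]

theorem sq_eq {x : MulAut H} {y : H} : (x ^ 2) y = x (x y) := by
  rw [pow_two, MulAut.mul_apply]

theorem fix_of_sq {x : MulAut H} {p : ℕ} (hp : p.Prime) (hodd : p ≠ 2) (hxp : x ^ p = 1) {y : H}
    (h : (x ^ 2) y = y) : x y = y := by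
  obtain ⟨m, hm⟩ := hp.odd_of_ne_two hodd
  have e : x = (x ^ 2) ^ (m + 1) := by
    rw [← pow_mul]
    have : 2 * (m + 1) = p + 1 := by omega
    rw [this, pow_succ, hxp, one_mul]
  rw [e]
  exact pow_fixed h _

theorem InvS.sup {x : MulAut H} {A B : Subgroup H} (hA : InvS x A) (hB : InvS x B) :
    InvS x (A ⊔ B) := by
  have : A ⊔ B ≤ (A ⊔ B).comap (x : H →* H) :=
    sup_le (fun y hy => (le_sup_left : A ≤ A ⊔ B) (hA y hy))
      (fun y hy => (le_sup_right : B ≤ A ⊔ B) (hB y hy))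
  exact fun y hy => this hy

end fix

section central

variable {H : Type u} [Group H] {x : MulAut H} {V : Subgroup H} {p : ℕ}

theorem c1_ne_top [Finite H] (c : Ctx x p) (hV : AbV x V) (h : H) (hK : V ⊔ R x h ≠ ⊤) :
    R x h ≤ SS V (BB hV p) hV.normal (BB_le hV p) := by
  haveI hVn := hV.normal
  intro t ht v hv
  have hKi : InvS x (V ⊔ R x h) := hV.inv.sup (R_inv x h)
  have h1 : t ∈ DK x (V ⊔ R x h) := DK_mono x le_sup_right (R_le_DK_R c.cop c.xp h ht)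
  have h2 : v ∈ V ⊔ R x h := (le_sup_left : V ≤ V ⊔ R x h) hv
  have h3 : t * v * t⁻¹ * v⁻¹ ∈ DK x (V ⊔ R x h) := by
    have h4 := Subgroup.mul_mem _ h1 (DK_conj x h2 (Subgroup.inv_mem _ h1))
    have e : t * (v * t⁻¹ * v⁻¹) = t * v * t⁻¹ * v⁻¹ := by group
    rwa [e] at h4
  have h4 : t * v * t⁻¹ * v⁻¹ ∈ V :=
    V.mul_mem (hVn.conj_mem v hv t) (V.inv_mem hv)
  refine ⟨h4, ?_⟩
  exact c.hsub _ hKi hK _ (PP_mem (DK_inv x hKi) h3 p) (PP_p_fix hV c.xp h4)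

theorem lift_R (hV : AbV x V) (h : H) {v : H} (hv : v ∈ V) {t : H} (ht : t ∈ R x h) :
    ∃ e ∈ V, e * t ∈ R x (v * h) := by
  haveI hVn := hV.normal
  induction ht using Subgroup.closure_induction with
  | mem t ht =>
    obtain ⟨i, rfl⟩ := ht
    refine ⟨h⁻¹ * (v⁻¹ * (x ^ i) v) * h⁻¹⁻¹, ?_, ?_⟩
    · exact hVn.conj_mem _ (V.mul_mem (V.inv_mem hv) (hV.inv.pow i hv)) _
    · have e : h⁻¹ * (v⁻¹ * (x ^ i) v) * h⁻¹⁻¹ * (h⁻¹ * (x ^ i) h) =
          (v * h)⁻¹ * (x ^ i) (v * h) := by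
        rw [map_mul]
        group
      rw [e]
      exact mem_R_self _ _ _
  | one => exact ⟨1, V.one_mem, by simpa using Subgroup.one_mem _⟩
  | mul t s _ _ ht hs =>
    obtain ⟨e, he, het⟩ := ht
    obtain ⟨f, hf, hfs⟩ := hs
    refine ⟨e * (t * f * t⁻¹), V.mul_mem he (hVn.conj_mem f hf t), ?_⟩
    have e1 : e * (t * f * t⁻¹) * (t * s) = (e * t) * (f * s) := by group
    rw [e1]
    exact Subgroup.mul_mem _ het hfs
  | inv t _ ht =>
    obtain ⟨e, he, het⟩ := ht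
    refine ⟨t⁻¹ * e⁻¹ * t⁻¹⁻¹, hVn.conj_mem _ (V.inv_mem he) _, ?_⟩
    have e1 : t⁻¹ * e⁻¹ * t⁻¹⁻¹ * t⁻¹ = (e * t)⁻¹ := by group
    rw [e1]
    exact Subgroup.inv_mem _ het

theorem sup_top' (hV : AbV x V) {h v : H} (hv : v ∈ V) (hK : V ⊔ R x h = ⊤) :
    V ⊔ R x (v * h) = ⊤ := by
  rw [eq_top_iff, ← hK]
  apply sup_le le_sup_left
  intro t ht
  obtain ⟨e, he, het⟩ := lift_R hV h hv ht
  have e1 : t = e⁻¹ * (e * t) := by group
  rw [e1]
  exact Subgroup.mul_mem _ ((le_sup_left : V ≤ _) (V.inv_mem he)) ((le_sup_right : R x (v * h) ≤ _) het)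

theorem D_bot [Finite H] (c : Ctx x p) (hV : AbV x V) {a : H} (hK : V ⊔ R x a = ⊤) :
    R x a ⊓ V = ⊥ := by
  haveI hVn := hV.normal
  by_contra hne
  refine c.hquot _ ?_ ?_ hne (fun y hy hfix => mem_W hy.1 hfix)
  · constructor
    intro y hy t
    have ht : t ∈ V ⊔ R x a := by rw [hK]; trivial
    obtain ⟨v', hv', r, hr, rfl⟩ := Subgroup.mem_sup_of_normal_left.1 ht
    have h1 : r * y * r⁻¹ ∈ R x a := (R x a).mul_mem ((R x a).mul_mem hr hy.1) ((R x a).inv_mem hr)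
    have h2 : r * y * r⁻¹ ∈ V := hVn.conj_mem _ hy.2 _
    have e1 : v' * r * y * (v' * r)⁻¹ = v' * (r * y * r⁻¹) * v'⁻¹ := by group
    rw [e1, hV.ab _ hv' _ h2]
    simpa using (⟨h1, h2⟩ : r * y * r⁻¹ ∈ R x a ⊓ V)
  · exact fun y hy => ⟨R_inv x a _ hy.1, hV.inv _ hy.2⟩

theorem uniq_lift [Finite H] (c : Ctx x p) (hV : AbV x V) {a : H} (hK : V ⊔ R x a = ⊤)
    {a' b' : H} (ha : a' ∈ R x a) (hb : b' ∈ R x a) (hab : a' * b'⁻¹ ∈ V) : a' = b' := by
  have h1 : a' * b'⁻¹ ∈ R x a ⊓ V := ⟨(R x a).mul_mem ha ((R x a).inv_mem hb), hab⟩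
  rw [D_bot c hV hK, Subgroup.mem_bot] at h1
  exact mul_inv_eq_one.1 h1

theorem P_lemma (hV : AbV x V) (hxp : x ^ p = 1) {c₀ : H} (hc : c₀ ∈ W x) {b : H} (hb : b ∈ V) :
    c₀ * x (x b) * c₀⁻¹ * b⁻¹ ∈ BB hV p := by
  haveI hVn := hV.normal
  have hcfix := fix_of_W hc
  have hb2 : x (x b) ∈ V := hV.inv _ (hV.inv _ hb)
  have h1 : c₀ * x (x b) * c₀⁻¹ ∈ V := hVn.conj_mem _ hb2 _
  refine ⟨V.mul_mem h1 (V.inv_mem hb), ?_⟩
  rw [PP_mul hV h1 (V.inv_mem hb), PP_conj hcfix, PP_inv hV hb, PP_x, PP_x, PP_p_fix hV hxp hb,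
    PP_p_fix hV hxp hb]
  have hN : x (PP x b p) = PP x b p := PP_p_fix hV hxp hb
  have e : c₀ * PP x b p * c₀⁻¹ * (PP x b p)⁻¹ = c₀ * (PP x b p * c₀⁻¹ * (PP x b p)⁻¹) := by group
  rw [e]
  exact (W x).mul_mem hc (W_conj hN ((W x).inv_mem hc))

theorem c1_top [Finite H] (c : Ctx x p) (hV : AbV x V) (h : H) (hK : V ⊔ R x h = ⊤) :
    R x h ≤ SS V (BB hV p) hV.normal (BB_le hV p) := by
  haveI hVn := hV.normal
  have hBV := BB_le hV p
  have hc₁ : h⁻¹ * x h ∈ R x h := by simpa using mem_R_self x h 1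
  have hd : x (h⁻¹ * x h) ∈ R x h := R_inv x h _ hc₁
  have hσi : InvS (x ^ 2) (R x h) := fun y hy => (R_inv x h).pow 2 hy
  have hσp : (x ^ 2) ^ p = 1 := by rw [← pow_mul, mul_comm, pow_mul, c.xp, one_pow]
  obtain ⟨g, hg, c₀, hc₀, hσc, hdeq⟩ := twisted c.prime c.cop hσp hσi hd
  have hcfix : x c₀ = c₀ := fix_of_sq c.prime c.odd c.xp hσc
  have hcW : c₀ ∈ W x := mem_W hc₀ hcfix
  rw [sq_eq] at hdeq
  generalize hddef : x (h⁻¹ * x h) = d at hdeq hd
  obtain ⟨Bt, hBtdef⟩ : ∃ Bt, Bt = BT (BB hV p) g := ⟨_, rfl⟩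
  have hmemBt : ∀ y, y ∈ Bt ↔ g⁻¹ * y * g ∈ BB hV p := by
    intro y
    rw [hBtdef, mem_BT]
  have hBtV : Bt ≤ V := by
    rw [hBtdef]
    exact BT_le hVn hBV g
  have hR1 : ∀ w ∈ V, d * x (x w) * d⁻¹ * w⁻¹ ∈ Bt := by
    intro w hw
    rw [hmemBt]
    have hb : g⁻¹ * w * g ∈ V := by
      have := hVn.conj_mem _ hw g⁻¹
      simpa using this
    have := P_lemma hV c.xp hcW hb
    have e : g⁻¹ * (d * x (x w) * d⁻¹ * w⁻¹) * g =
        c₀ * x (x (g⁻¹ * w * g)) * c₀⁻¹ * (g⁻¹ * w * g)⁻¹ := by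
      rw [hdeq]
      simp only [map_mul, map_inv]
      group
    rw [e]
    exact this
  have hR2 : ∀ y ∈ Bt, d * x (x y) * d⁻¹ ∈ Bt := by
    intro y hy
    have := Bt.mul_mem (hR1 y (hBtV hy)) hy
    simpa using this
  have hstar : ∀ w ∈ V, w⁻¹ * (d * x w * d⁻¹) ∈ Bt := by
    intro w hw
    have hv0 : x h * w * (x h)⁻¹ ∈ V := hVn.conj_mem w hw (x h)
    obtain ⟨v, hvdef⟩ : ∃ v, v = x⁻¹ (x h * w * (x h)⁻¹) := ⟨_, rfl⟩
    have hv : v ∈ V := by
      rw [hvdef]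
      exact hV.inv.inv c.prime.pos c.xp _ hv0
    have hxv : x v = x h * w * (x h)⁻¹ := by
      rw [hvdef]
      exact MulAut.apply_inv_self H x _
    have hKa : V ⊔ R x (v * h) = ⊤ := sup_top' hV hv hK
    obtain ⟨e, he, heg⟩ := lift_R hV h hv hg
    obtain ⟨f, hf, hfc⟩ := lift_R hV h hv hc₀
    have hfcfix : x (f * c₀) = f * c₀ := by
      refine uniq_lift c hV hKa (R_inv _ _ _ hfc) hfc ?_
      rw [map_mul, hcfix]
      have e1 : x f * c₀ * (f * c₀)⁻¹ = x f * f⁻¹ := by group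
      rw [e1]
      exact V.mul_mem (hV.inv _ hf) (V.inv_mem hf)
    have hfcW : f * c₀ ∈ W x := mem_W hfc hfcfix
    have hfW : f ∈ W x := by
      have := (W x).mul_mem hfcW ((W x).inv_mem hcW)
      simpa using this
    have hfB : f ∈ BB hV p := BB_of_W hV p hfW hf
    have hrd : (e * g) * (f * c₀) * (x (x (e * g)))⁻¹ ∈ R x (v * h) :=
      Subgroup.mul_mem _ (Subgroup.mul_mem _ heg hfc)
        (Subgroup.inv_mem _ (R_inv _ _ _ (R_inv _ _ _ heg)))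
    have hd' : x ((v * h)⁻¹ * x (v * h)) ∈ R x (v * h) :=
      R_inv _ _ _ (by simpa using mem_R_self x (v * h) 1)
    obtain ⟨A, hAdef⟩ : ∃ A, A = e * (g * f * g⁻¹) * (d * (x (x e))⁻¹ * d⁻¹) := ⟨_, rfl⟩
    have hA : A ∈ V := by
      rw [hAdef]
      exact V.mul_mem (V.mul_mem he (hVn.conj_mem _ hf _))
        (hVn.conj_mem _ (V.inv_mem (hV.inv _ (hV.inv _ he))) _)
    have hrdA : (e * g) * (f * c₀) * (x (x (e * g)))⁻¹ = A * d := by
      rw [hAdef, hdeq]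
      simp only [map_mul, mul_inv_rev]
      group
    obtain ⟨B', hB'def⟩ : ∃ B', B' = (x h)⁻¹ * (x v)⁻¹ * x (x v) * x h := ⟨_, rfl⟩
    have hB' : B' ∈ V := by
      rw [hB'def]
      have := hVn.conj_mem _ (V.mul_mem (V.inv_mem (hV.inv _ hv)) (hV.inv _ (hV.inv _ hv))) (x h)⁻¹
      have e1 : (x h)⁻¹ * ((x v)⁻¹ * x (x v)) * (x h)⁻¹⁻¹ = (x h)⁻¹ * (x v)⁻¹ * x (x v) * x h := by
        group
      rwa [e1] at this
    have hdB' : x ((v * h)⁻¹ * x (v * h)) = B' * d := by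
      rw [hB'def, ← hddef]
      simp only [map_mul, map_inv, mul_inv_rev]
      group
    have hAB' : A = B' := by
      have := uniq_lift c hV hKa hrd hd' (by
        rw [hrdA, hdB']
        have e1 : A * d * (B' * d)⁻¹ = A * B'⁻¹ := by group
        rw [e1]
        exact V.mul_mem hA (V.inv_mem hB'))
      rw [hrdA, hdB'] at this
      exact mul_right_cancel this
    have hB'2 : B' = w⁻¹ * (d * x w * d⁻¹) := by
      rw [hB'def, hxv, ← hddef]
      simp only [map_mul, map_inv, mul_inv_rev]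
      group
    rw [← hB'2, ← hAB', hmemBt]
    have hb : g⁻¹ * e * g ∈ V := by
      have := hVn.conj_mem _ he g⁻¹
      simpa using this
    have hY := P_lemma hV c.xp hcW hb
    have hfY := (BB hV p).mul_mem hfB ((BB hV p).inv_mem hY)
    have hcomm := hV.ab _ hb _ hf
    have e2 : g⁻¹ * A * g = (g⁻¹ * e * g) * f * (c₀ * (x (x (g⁻¹ * e * g)))⁻¹ * c₀⁻¹) := by
      rw [hAdef, hdeq]
      simp only [map_mul, map_inv, mul_inv_rev, inv_inv]
      group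
    rw [e2, hcomm]
    have e3 : f * (g⁻¹ * e * g) * (c₀ * (x (x (g⁻¹ * e * g)))⁻¹ * c₀⁻¹) =
        f * (c₀ * x (x (g⁻¹ * e * g)) * c₀⁻¹ * (g⁻¹ * e * g)⁻¹)⁻¹ := by
      group
    rw [e3]
    exact hfY
  have hR3 : ∀ w ∈ V, (x w)⁻¹ * w ∈ Bt := by
    intro w hw
    have h1 := hstar (x w) (hV.inv _ hw)
    have h2 := hR1 w hw
    have hY : d * x (x w) * d⁻¹ ∈ V := hVn.conj_mem _ (hV.inv _ (hV.inv _ hw)) _
    have hcomm := hV.ab _ hY _ hw
    have := Bt.mul_mem h1 (Bt.inv_mem h2)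
    have e1 : (x w)⁻¹ * (d * x (x w) * d⁻¹) * (d * x (x w) * d⁻¹ * w⁻¹)⁻¹ =
        (x w)⁻¹ * ((d * x (x w) * d⁻¹) * w) * (d * x (x w) * d⁻¹)⁻¹ := by group
    rw [e1, hcomm] at this
    simpa [mul_assoc] using this
  have hBti : InvS x Bt := by
    intro y hy
    have h1 := hR3 y (hBtV hy)
    have := Bt.mul_mem hy (Bt.inv_mem h1)
    simpa using this
  have hBti' : InvS x⁻¹ Bt := hBti.inv c.prime.pos c.xp
  have hdconj : ∀ y ∈ Bt, d * y * d⁻¹ ∈ Bt := by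
    intro y hy
    have h1 := hBti' _ (hBti' _ hy)
    have := hR2 _ h1
    simpa using this
  have hdS : d ∈ SS V Bt hVn hBtV := by
    intro v hv
    have h1 := hstar v hv
    have h2 := hdconj _ (hR3 v hv)
    have := Bt.mul_mem h1 h2
    have e1 : v⁻¹ * (d * x v * d⁻¹) * (d * ((x v)⁻¹ * v) * d⁻¹) = v⁻¹ * (d * v * d⁻¹) := by group
    rw [e1] at this
    have hY : d * v * d⁻¹ ∈ V := hVn.conj_mem _ hv _
    have hcomm := hV.ab _ hY _ (V.inv_mem hv)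
    rwa [← hcomm] at this
  have hSi : InvS x (SS V Bt hVn hBtV) := SS_invS c.prime.pos c.xp hV.inv hBti
  have hc1S : h⁻¹ * x h ∈ SS V Bt hVn hBtV := by
    have : (x ^ (p - 1)) d = h⁻¹ * x h := by
      rw [← hddef, ← MulAut.mul_apply, ← pow_succ, Nat.sub_add_cancel c.prime.pos, c.xp]
      rfl
    rw [← this]
    exact hSi.pow _ hdS
  have hallS : ∀ i : ℕ, h⁻¹ * (x ^ i) h ∈ SS V Bt hVn hBtV := by
    intro i
    induction i with
    | zero => simpa using Subgroup.one_mem _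
    | succ i ih =>
      rw [c_succ]
      exact Subgroup.mul_mem _ ih (hSi.pow i hc1S)
  have hRS : R x h ≤ SS V Bt hVn hBtV := by
    apply (Subgroup.closure_le _).2
    rintro _ ⟨i, rfl⟩
    exact hallS i
  have hBtB : ∀ y ∈ Bt, y ∈ BB hV p := by
    intro y hy
    have h1 : g * y * g⁻¹ ∈ Bt := SS_conj_mem (hRS hg) hy
    have := (hmemBt _).1 h1
    have e1 : g⁻¹ * (g * y * g⁻¹) * g = y := by group
    rwa [e1] at this
  intro t ht v hv
  exact hBtB _ (hRS ht v hv)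

/-- The central lemma. -/
theorem central_lemma [Finite H] (c : Ctx x p) (hV : AbV x V) :
    (∀ v ∈ V, x v = v) ∧ (∀ v ∈ V, ∀ t : H, t * v = v * t) := by
  haveI hVn := hV.normal
  have hS : ∀ h, R x h ≤ SS V (BB hV p) hV.normal (BB_le hV p) := fun h => by
    by_cases hK : V ⊔ R x h = ⊤
    · exact c1_top c hV h hK
    · exact c1_ne_top c hV h hK
  have htop : ∀ t, t ∈ SS V (BB hV p) hV.normal (BB_le hV p) := by
    intro t
    have h1 : t ∈ DK x ⊤ := by rw [c.top]; trivial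
    have hle : DK x ⊤ ≤ SS V (BB hV p) hV.normal (BB_le hV p) := by
      apply (Subgroup.closure_le _).2
      rintro _ ⟨k, -, i, rfl⟩
      exact hS k (mem_R_self x k i)
    exact hle h1
  have hBn : (BB hV p).Normal := ⟨fun y hy t => SS_conj_mem (htop t) hy⟩
  have hBbot : BB hV p = ⊥ := by
    by_contra hne
    exact c.hquot _ hBn (BB_inv hV c.xp) hne (fun y hy hfix => BB_fix hV c.cop hy hfix)
  constructor
  · intro v hv
    have h1 : v⁻¹ * (x ^ 1) v ∈ DK x V := mem_DK hv 1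
    have h2 := BB_of_DK hV c.xp h1
    rw [hBbot, Subgroup.mem_bot, pow_one] at h2
    exact (mul_eq_one_iff_eq_inv'.1 h2).symm ▸ (by simp)
  · intro v hv t
    have h1 := htop t v hv
    rw [hBbot, Subgroup.mem_bot] at h1
    have h2 : t * v * t⁻¹ = v := mul_inv_eq_one.1 h1
    exact mul_inv_eq_iff_eq_mul.1 h2

end central

end Cfsg.Agent.Flavell
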