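import Mathlib
import Cfsg.Agent.Lib.FlavellB

set_option autoImplicit false

namespace Cfsg.Agent.Flavell

universe u

section FF

variable {H : Type u} [Group H]

/-- commutators -/
def FF (a b : H) : H := a * b * a⁻¹ * b⁻¹

/-- `τ` -/
def tau (x : MulAut H) (a : H) : H := a⁻¹ * x a

theorem cen {z : H} (hz : z ∈ Subgroup.center H) (t : H) : z * t = t * z :=
  (Subgroup.mem_center_iff.1 hz t).symm

theorem FF_mul_right {a b b' : H} (h : FF a b' ∈ Subgroup.center H) :
    FF a (b * b') = FF a b * FF a b' := by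
  calc FF a (b * b') = a * b * a⁻¹ * FF a b' * b⁻¹ := by unfold FF; group
    _ = a * b * a⁻¹ * (FF a b' * b⁻¹) := by group
    _ = a * b * a⁻¹ * (b⁻¹ * FF a b') := by rw [cen h]
    _ = FF a b * FF a b' := by unfold FF; group

theorem FF_mul_left {a a' b : H} (h : FF a' b ∈ Subgroup.center H) :
    FF (a * a') b = FF a b * FF a' b := by
  calc FF (a * a') b = a * FF a' b * (b * a⁻¹ * b⁻¹) := by unfold FF; group
    _ = a * (FF a' b * (b * a⁻¹ * b⁻¹)) := by group
    _ = a * ((b * a⁻¹ * b⁻¹) * FF a' b) := by rw [cen h]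
    _ = FF a b * FF a' b := by unfold FF; group

theorem FF_cen_right {a z : H} (h : z ∈ Subgroup.center H) : FF a z = 1 := by
  unfold FF
  rw [← cen h a]
  group

theorem FF_cen_left {a z : H} (h : z ∈ Subgroup.center H) : FF z a = 1 := by
  unfold FF
  rw [cen h a]
  group

theorem FF_one_right (a : H) : FF a 1 = 1 := by
  unfold FF
  group

theorem FF_self (a : H) : FF a a = 1 := by
  unfold FF
  group

theorem FF_swap (a b : H) : FF b a = (FF a b)⁻¹ := by
  unfold FF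
  group

theorem FF_map (x : MulAut H) (a b : H) : FF (x a) (x b) = x (FF a b) := by
  unfold FF
  simp only [map_mul, map_inv]

theorem tau_mul (x : MulAut H) (a b : H) :
    tau x (a * b) = b⁻¹ * tau x a * b * tau x b := by
  unfold tau
  rw [map_mul]
  group

theorem tau_x (x : MulAut H) (a : H) : tau x (x a) = x (tau x a) := by
  unfold tau
  simp only [map_mul, map_inv]

theorem tau_inv (x : MulAut H) (a : H) : tau x a⁻¹ = a⁻¹⁻¹ * (tau x a)⁻¹ * a⁻¹ := by
  unfold tau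
  simp only [map_inv]
  group

theorem tau_one (x : MulAut H) : tau x (1 : H) = 1 := by
  unfold tau
  simp

/-- The hypotheses on `M`. -/
structure MC (x : MulAut H) (M : Subgroup H) : Prop where
  normal : M.Normal
  inv : InvS x M
  comm : ∀ a ∈ M, ∀ b ∈ M, FF a b ∈ Subgroup.center H
  zfix : ∀ z ∈ Subgroup.center H, x z = z

variable {x : MulAut H} {M : Subgroup H}

theorem MC.tau_mem (h : MC x M) {a : H} (ha : a ∈ M) : tau x a ∈ M :=
  M.mul_mem (M.inv_mem ha) (h.inv _ ha)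

theorem MC.FF_mem (h : MC x M) {a b : H} (ha : a ∈ M) (hb : b ∈ M) : FF a b ∈ M :=
  M.mul_mem (h.normal.conj_mem _ hb _ |> fun h1 => by
    have e : a * b * a⁻¹ = a * b * a⁻¹ := rfl
    exact h1) (M.inv_mem hb)

theorem MC.mul_r (h : MC x M) {a b b' : H} (ha : a ∈ M) (hb' : b' ∈ M) :
    FF a (b * b') = FF a b * FF a b' := FF_mul_right (h.comm _ ha _ hb')

theorem MC.mul_l (h : MC x M) {a a' b : H} (ha' : a' ∈ M) (hb : b ∈ M) :
    FF (a * a') b = FF a b * FF a' b := FF_mul_left (h.comm _ ha' _ hb)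

theorem MC.inv_r (h : MC x M) {a b : H} (ha : a ∈ M) (hb : b ∈ M) :
    FF a b⁻¹ = (FF a b)⁻¹ := by
  have := h.mul_r (b := b⁻¹) ha hb
  rw [inv_mul_cancel, FF_one_right] at this
  exact (inv_eq_of_mul_eq_one_left this.symm).symm ▸ rfl

theorem MC.conj_r (h : MC x M) {a b y : H} (ha : a ∈ M) (hb : b ∈ M) (hy : y ∈ M) :
    FF a (b⁻¹ * y * b) = FF a y := by
  have e : b⁻¹ * y * b = y * FF y⁻¹ b⁻¹ := by
    unfold FF
    group
  have hz := h.comm _ (M.inv_mem hy) _ (M.inv_mem hb)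
  rw [e, FF_mul_right (by rw [FF_cen_right hz]; exact Subgroup.one_mem _), FF_cen_right hz,
    mul_one]

theorem MC.conj_l (h : MC x M) {a b y : H} (ha : a ∈ M) (hb : b ∈ M) (hy : y ∈ M) :
    FF (b⁻¹ * y * b) a = FF y a := by
  rw [FF_swap a, h.conj_r ha hb hy, ← FF_swap]

theorem MC.tau_l (h : MC x M) {a b z : H} (ha : a ∈ M) (hb : b ∈ M) (hz : z ∈ M) :
    FF (tau x (a * b)) z = FF (tau x a) z * FF (tau x b) z := by
  rw [tau_mul, h.mul_l (h.tau_mem hb) hz, h.conj_l hz hb (h.tau_mem ha)]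

theorem MC.tau_r (h : MC x M) {a b z : H} (ha : a ∈ M) (hb : b ∈ M) (hz : z ∈ M) :
    FF z (tau x (a * b)) = FF z (tau x a) * FF z (tau x b) := by
  rw [tau_mul, h.mul_r hz (h.tau_mem hb), h.conj_r hz hb (h.tau_mem ha)]

theorem MC.xtau_r (h : MC x M) {a b z : H} (ha : a ∈ M) (hb : b ∈ M) (hz : z ∈ M) :
    FF z (x (tau x (a * b))) = FF z (x (tau x a)) * FF z (x (tau x b)) := by
  rw [tau_mul, map_mul, map_mul, map_mul, map_inv, h.mul_r hz (h.inv _ (h.tau_mem hb)),
    h.conj_r hz (h.inv _ hb) (h.inv _ (h.tau_mem ha))]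

theorem MC.FF_x (h : MC x M) {a b : H} (ha : a ∈ M) (hb : b ∈ M) :
    FF (x a) (x b) = FF a b := by
  rw [FF_map, h.zfix _ (h.comm _ ha _ hb)]

/-- polarisation -/
theorem MC.polar (h : MC x M) (hd1 : ∀ a ∈ M, FF (tau x a) (x (tau x a)) = 1)
    {a b : H} (ha : a ∈ M) (hb : b ∈ M) :
    FF (tau x a) (x (tau x b)) * FF (tau x b) (x (tau x a)) = 1 := by
  have h1 := hd1 _ (M.mul_mem ha hb)
  have hxa := h.inv _ (h.tau_mem (M.mul_mem ha hb))
  rw [h.tau_l ha hb hxa, h.xtau_r ha hb (h.tau_mem ha), h.xtau_r ha hb (h.tau_mem hb),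
    hd1 a ha, hd1 b hb, one_mul, mul_one] at h1
  exact h1

theorem MC.d3 (h : MC x M) (hd1 : ∀ a ∈ M, FF (tau x a) (x (tau x a)) = 1)
    {a b : H} (ha : a ∈ M) (hb : b ∈ M) :
    FF (tau x a) (x (x (tau x b))) = FF (tau x a) (tau x b) := by
  have h1 := h.polar hd1 ha (h.inv _ hb)
  rw [tau_x, h.FF_x (h.tau_mem hb) (h.tau_mem ha), FF_swap (tau x a) (tau x b)] at h1
  exact (mul_inv_eq_one.1 h1)

/-- Lemma G. -/
theorem MC.lemma_G [Finite H] {p : ℕ} (hc : (Nat.card H).Coprime p) (h : MC x M) {σ : MulAut H}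
    (hσp : σ ^ p = 1) (hσz : ∀ z ∈ Subgroup.center H, σ z = z) (hMσ : InvS σ M) {T : Subgroup H}
    (hMT : ∀ a ∈ M, ∀ b ∈ M, FF a b ∈ T) (h1 : ∀ b ∈ M, b⁻¹ * σ b ∈ T)
    (h2 : ∀ c ∈ M, σ c = c → c ∈ T) {m : H} (hm : m ∈ M) : m ∈ T := by
  have hNM : PP σ m p ∈ M := PP_mem hMσ hm p
  have hσN : σ (PP σ m p) = m⁻¹ * PP σ m p * m := by
    have h3 := PP_succ' σ m p
    rw [PP_succ, hσp] at h3
    have h4 : (1 : MulAut H) m = m := rfl
    rw [h4] at h3
    rw [mul_assoc, h3]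
    group
  -- the central defect
  have hζ : FF (PP σ m p)⁻¹ m⁻¹ ∈ Subgroup.center H := h.comm _ (M.inv_mem hNM) _ (M.inv_mem hm)
  have hσN2 : σ (PP σ m p) = PP σ m p * FF (PP σ m p)⁻¹ m⁻¹ := by
    rw [hσN]
    unfold FF
    group
  have hpow : ∀ k : ℕ, (σ ^ k) (PP σ m p) = PP σ m p * (FF (PP σ m p)⁻¹ m⁻¹) ^ k := by
    intro k
    induction k with
    | zero => simp
    | succ k ih =>
      rw [pow_succ', MulAut.mul_apply, ih, map_mul, hσN2, map_pow, hσz _ hζ, pow_succ']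
      group
  have hζ1 : FF (PP σ m p)⁻¹ m⁻¹ = 1 := by
    have h3 := hpow p
    rw [hσp] at h3
    have h4 : (1 : MulAut H) (PP σ m p) = PP σ m p := rfl
    rw [h4] at h3
    exact eq_one_of_pow_eq_one hc (mul_left_cancel (a := PP σ m p) (by rw [← h3, mul_one]))
  have hNfix : σ (PP σ m p) = PP σ m p := by
    rw [hσN2, hζ1, mul_one]
  have hNT : PP σ m p ∈ T := h2 _ hNM hNfix
  have hi : ∀ k : ℕ, m⁻¹ * (σ ^ k) m ∈ T := by
    intro k
    induction k with
    | zero => simpa using T.one_mem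
    | succ k ih =>
      have e : m⁻¹ * (σ ^ (k + 1)) m = (m⁻¹ * (σ ^ k) m) * (((σ ^ k) m)⁻¹ * σ ((σ ^ k) m)) := by
        rw [pow_succ', MulAut.mul_apply]
        group
      rw [e]
      exact T.mul_mem ih (h1 _ (hMσ.pow k hm))
  have hconj : ∀ y ∈ T, y ∈ M → m⁻¹ * y * m ∈ T := by
    intro y hy hyM
    have h3 := T.mul_mem (hMT _ (M.inv_mem hm) _ hyM) hy
    have e : FF m⁻¹ y * y = m⁻¹ * y * m := by
      unfold FF
      group
    rwa [e] at h3
  have hTM : ∀ k : ℕ, (m ^ k)⁻¹ * PP σ m k ∈ T ∧ (m ^ k)⁻¹ * PP σ m k ∈ M := by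
    intro k
    induction k with
    | zero => simpa [PP] using ⟨T.one_mem, M.one_mem⟩
    | succ k ih =>
      have e : (m ^ (k + 1))⁻¹ * PP σ m (k + 1) =
          (m⁻¹ * ((m ^ k)⁻¹ * PP σ m k) * m) * (m⁻¹ * (σ ^ k) m) := by
        rw [PP_succ, pow_succ]
        group
      rw [e]
      refine ⟨T.mul_mem (hconj _ ih.1 ih.2) (hi k), ?_⟩
      have h5 := h.normal.conj_mem _ ih.2 m⁻¹
      rw [inv_inv] at h5
      exact M.mul_mem h5 (M.mul_mem (M.inv_mem hm) (hMσ.pow k hm))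
  have h6 := (hTM p).1
  have h7 := T.mul_mem hNT (T.inv_mem h6)
  have e : PP σ m p * ((m ^ p)⁻¹ * PP σ m p)⁻¹ = m ^ p := by group
  rw [e] at h7
  exact mem_of_pow_mem hc h7

/-- The subgroup `T₂`. -/
def T2 (h : MC x M) : Subgroup H where
  carrier := {y | y ∈ M ∧ ∀ a ∈ M, FF (tau x a) (tau x y) = 1}
  mul_mem' := by
    rintro y z ⟨hy, hy'⟩ ⟨hz, hz'⟩
    refine ⟨M.mul_mem hy hz, fun a ha => ?_⟩
    rw [h.tau_r hy hz (h.tau_mem ha), hy' a ha, hz' a ha, one_mul]
  one_mem' := ⟨M.one_mem, fun a _ => by rw [tau_one, FF_one_right]⟩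
  inv_mem' := by
    rintro y ⟨hy, hy'⟩
    refine ⟨M.inv_mem hy, fun a ha => ?_⟩
    rw [tau_inv, h.conj_r (h.tau_mem ha) (M.inv_mem hy) (M.inv_mem (h.tau_mem hy)),
      h.inv_r (h.tau_mem ha) (h.tau_mem hy), hy' a ha, inv_one]

/-- The subgroup `T₁`. -/
def T1 (h : MC x M) : Subgroup H where
  carrier := {y | y ∈ M ∧ ∀ a ∈ M, FF (tau x a) y = 1}
  mul_mem' := by
    rintro y z ⟨hy, hy'⟩ ⟨hz, hz'⟩
    refine ⟨M.mul_mem hy hz, fun a ha => ?_⟩
    rw [h.mul_r (h.tau_mem ha) hz, hy' a ha, hz' a ha, one_mul]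
  one_mem' := ⟨M.one_mem, fun a _ => by rw [FF_one_right]⟩
  inv_mem' := by
    rintro y ⟨hy, hy'⟩
    refine ⟨M.inv_mem hy, fun a ha => ?_⟩
    rw [h.inv_r (h.tau_mem ha) hy, hy' a ha, inv_one]

theorem tau_of_fix {a : H} (ha : x a = a) : tau x a = 1 := by
  unfold tau
  rw [ha]
  group

theorem abV_center (x : MulAut H) : AbV x (Subgroup.center H) where
  normal := inferInstance
  inv := by
    intro z hz
    rw [Subgroup.mem_center_iff] at hz ⊢
    intro g
    have h1 := hz (x⁻¹ g)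
    have h2 := congrArg x h1
    simpa only [map_mul, MulAut.apply_inv_self] using h2
  ab := fun a ha b _ => cen ha b

theorem fix_of_tau_fix [Finite H] {p : ℕ} (hc : (Nat.card H).Coprime p) (hxp : x ^ p = 1) {a : H}
    (h : x (tau x a) = tau x a) : x a = a := by
  have h1 : ∀ k : ℕ, (x ^ k) a = a * (tau x a) ^ k := by
    intro k
    induction k with
    | zero => simp
    | succ k ih =>
      rw [pow_succ', MulAut.mul_apply, ih, map_mul, map_pow, h, pow_succ', ← mul_assoc]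
      congr 1
      unfold tau
      group
  have h2 := h1 p
  rw [hxp] at h2
  have h3 : (tau x a) ^ p = 1 := by
    have h4 : (1 : MulAut H) a = a := rfl
    rw [h4] at h2
    exact (mul_eq_left.1 h2.symm)
  have h5 := eq_one_of_pow_eq_one hc h3
  unfold tau at h5
  exact (inv_mul_eq_one.1 h5).symm

variable {p : ℕ}

/-- The key structural statement. -/
theorem M_central [Finite H] (c : Ctx x p) (hMn : M.Normal) (hMi : InvS x M)
    (hcomm : ∀ a ∈ M, ∀ b ∈ M, FF a b ∈ Subgroup.center H) : M ≤ Subgroup.center H := by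
  have hz := (central_lemma c (abV_center x)).1
  have h : MC x M := ⟨hMn, hMi, hcomm, hz⟩
  have hRab : ∀ a ∈ M, ∀ r₁ ∈ R x a, ∀ r₂ ∈ R x a, FF r₁ r₂ = 1 := by
    by_contra hcon
    push Not at hcon
    obtain ⟨a, ha, r₁, hr₁, r₂, hr₂, hne⟩ := hcon
    have hRM : R x a ≤ M := by
      apply (Subgroup.closure_le _).2
      rintro _ ⟨i, rfl⟩
      exact M.mul_mem (M.inv_mem ha) (hMi.pow i ha)
    have htZ : FF r₁ r₂ ∈ Subgroup.center H := hcomm _ (hRM hr₁) _ (hRM hr₂)
    have htfix := hz _ htZ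
    have htR : FF r₁ r₂ ∈ R x a :=
      Subgroup.mul_mem _ (Subgroup.mul_mem _ (Subgroup.mul_mem _ hr₁ hr₂) (Subgroup.inv_mem _ hr₁))
        (Subgroup.inv_mem _ hr₂)
    have htW := mem_W htR htfix
    have hzc : Subgroup.zpowers (FF r₁ r₂) ≤ Subgroup.center H := Subgroup.zpowers_le.2 htZ
    refine c.hquot (Subgroup.zpowers (FF r₁ r₂)) ⟨fun y hy t => ?_⟩ ?_ ?_ ?_
    · rw [← cen (hzc hy) t]
      simpa using hy
    · intro y hy
      rw [hz _ (hzc hy)]
      exact hy
    · exact Subgroup.zpowers_ne_bot.2 hne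
    · intro y hy _
      exact Subgroup.zpowers_le.2 htW hy
  have hd1 : ∀ a ∈ M, FF (tau x a) (x (tau x a)) = 1 := by
    intro a ha
    have h1 : tau x a ∈ R x a := by
      have := mem_R_self x a 1
      rwa [pow_one] at this
    have h2 : tau x a * x (tau x a) ∈ R x a := Subgroup.mul_mem _ h1 (R_inv x a _ h1)
    have h3 := hRab a ha _ h1 _ h2
    rwa [h.mul_r (h.tau_mem ha) (hMi _ (h.tau_mem ha)), FF_self, one_mul] at h3
  have hT2 : ∀ m ∈ M, m ∈ T2 h := by
    intro m hm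
    refine h.lemma_G c.cop (σ := x ^ 2) (by rw [← pow_mul, mul_comm, pow_mul, c.xp, one_pow])
      (fun z hz' => pow_fixed (hz z hz') 2) (fun y hy => hMi.pow 2 hy) ?_ ?_ ?_ hm
    · intro a ha b hb
      refine ⟨h.FF_mem ha hb, fun a' _ => ?_⟩
      rw [tau_of_fix (hz _ (hcomm _ ha _ hb)), FF_one_right]
    · intro b hb
      have hb2 : (x ^ 2) b ∈ M := hMi.pow 2 hb
      refine ⟨M.mul_mem (M.inv_mem hb) hb2, fun a ha => ?_⟩
      rw [h.tau_r (M.inv_mem hb) hb2 (h.tau_mem ha), tau_inv,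
        h.conj_r (h.tau_mem ha) (M.inv_mem hb) (M.inv_mem (h.tau_mem hb)),
        h.inv_r (h.tau_mem ha) (h.tau_mem hb), sq_eq, tau_x, tau_x, h.d3 hd1 ha hb]
      group
    · intro y hy hfix
      refine ⟨hy, fun a _ => ?_⟩
      rw [tau_of_fix (fix_of_sq c.prime c.odd c.xp hfix), FF_one_right]
  have hT1 : ∀ m ∈ M, m ∈ T1 h := by
    intro m hm
    refine h.lemma_G c.cop (σ := x) c.xp hz hMi ?_ ?_ ?_ hm
    · intro a ha b hb
      exact ⟨h.FF_mem ha hb, fun a' _ => FF_cen_right (hcomm _ ha _ hb)⟩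
    · intro b hb
      exact ⟨h.tau_mem hb, fun a ha => (hT2 b hb).2 a ha⟩
    · intro y hy hfix
      refine ⟨hy, fun a ha => ?_⟩
      have h1 : FF (a⁻¹ * x a) y = FF a⁻¹ y * FF (x a) y := h.mul_l (hMi _ ha) hy
      have h2 : FF (x a) y = FF a y := by
        have := h.FF_x ha hy
        rwa [hfix] at this
      have h3 : FF (a⁻¹ * a) y = FF a⁻¹ y * FF a y := h.mul_l ha hy
      have h4 : FF (1 : H) y = 1 := by
        unfold FF
        group
      rw [inv_mul_cancel, h4] at h3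
      unfold tau
      rw [h1, h2, ← h3]
  -- the centre of `M`
  have hV : AbV x (M ⊓ Subgroup.centralizer (M : Set H)) := by
    refine ⟨⟨fun y hy t => Subgroup.mem_inf.2 ⟨hMn.conj_mem _ hy.1 _, ?_⟩⟩, ?_, ?_⟩
    · rw [Subgroup.mem_centralizer_iff]
      intro m hm
      have h1 := (Subgroup.mem_centralizer_iff.1 hy.2) _ (hMn.conj_mem m hm t⁻¹)
      have e : m * (t * y * t⁻¹) = t * ((t⁻¹ * m * t⁻¹⁻¹) * y) * t⁻¹ := by group
      rw [e, h1]
      group
    · refine fun y hy => Subgroup.mem_inf.2 ⟨hMi _ hy.1, ?_⟩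
      rw [Subgroup.mem_centralizer_iff]
      intro m hm
      have h1 := (Subgroup.mem_centralizer_iff.1 hy.2) _ (hMi.inv c.prime.pos c.xp _ hm)
      have h2 := congrArg x h1
      simpa only [map_mul, MulAut.apply_inv_self] using h2
    · intro a ha b hb
      exact ((Subgroup.mem_centralizer_iff.1 hb.2) a ha.1).symm ▸ rfl
  have hVfix := (central_lemma c hV).1
  have hMfix : ∀ m ∈ M, x m = m := by
    intro m hm
    apply fix_of_tau_fix c.cop c.xp
    apply hVfix
    refine Subgroup.mem_inf.2 ⟨h.tau_mem hm, ?_⟩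
    rw [Subgroup.mem_centralizer_iff]
    intro y hy
    have h1 := (hT1 y hy).2 m hm
    unfold FF at h1
    have h2 : tau x m * y * (tau x m)⁻¹ = y := mul_inv_eq_one.1 h1
    exact (mul_inv_eq_iff_eq_mul.1 h2).symm
  intro m hm
  rw [Subgroup.mem_center_iff]
  have hle : DK x ⊤ ≤ Subgroup.centralizer {m} := by
    apply (Subgroup.closure_le _).2
    rintro _ ⟨k, -, i, rfl⟩
    show k⁻¹ * (x ^ i) k ∈ Subgroup.centralizer {m}
    rw [Subgroup.mem_centralizer_singleton_iff]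
    have hm' : k * m * k⁻¹ ∈ M := hMn.conj_mem m hm k
    have h1 : (x ^ i) (k * m * k⁻¹) = k * m * k⁻¹ := pow_fixed (hMfix _ hm') i
    rw [map_mul, map_mul, map_inv, pow_fixed (hMfix _ hm)] at h1
    have h2 : (x ^ i) k * m = k * m * k⁻¹ * (x ^ i) k := by
      rw [← h1]
      group
    calc k⁻¹ * (x ^ i) k * m = k⁻¹ * ((x ^ i) k * m) := by group
      _ = k⁻¹ * (k * m * k⁻¹ * (x ^ i) k) := by rw [h2]
      _ = m * (k⁻¹ * (x ^ i) k) := by group
  intro g
  have hg : g ∈ DK x ⊤ := by rw [c.top]; trivial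
  have := Subgroup.mem_centralizer_singleton_iff.1 (hle hg)
  exact this

theorem final_contra [Finite H] [Group.IsSolvable H] (c : Ctx x p) (hbad : ¬ Fx x ≤ W x) : False := by
  obtain ⟨n₀, hn₀⟩ := (isSolvable_def H).1 inferInstance
  have hall : ∀ k n : ℕ, n + k = n₀ → derivedSeries H n ≤ Subgroup.center H := by
    intro k
    induction k with
    | zero =>
      intro n hn
      rw [Nat.add_zero] at hn
      rw [hn, hn₀]
      exact bot_le
    | succ k ih =>
      intro n hn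
      have h1 := ih (n + 1) (by omega)
      apply M_central c (derivedSeries_normal H n)
      · intro y hy
        exact map_derivedSeries_le_derivedSeries (x : H →* H) n ⟨y, hy, rfl⟩
      · intro a ha b hb
        apply h1
        rw [derivedSeries_succ]
        exact Subgroup.commutator_mem_commutator ha hb
  have htop : (⊤ : Subgroup H) ≤ Subgroup.center H := hall n₀ 0 (by omega)
  have hz := (central_lemma c (abV_center x)).1
  have hfix : ∀ y : H, x y = y := fun y => hz y (htop (Subgroup.mem_top y))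
  have hbot : DK x ⊤ = ⊥ := by
    rw [eq_bot_iff]
    apply (Subgroup.closure_le _).2
    rintro _ ⟨k, -, i, rfl⟩
    simp [pow_fixed (hfix k)]
  rw [c.top] at hbot
  apply hbad
  intro y _
  have hy : y ∈ (⊤ : Subgroup H) := Subgroup.mem_top y
  rw [hbot, Subgroup.mem_bot] at hy
  rw [hy]
  exact Subgroup.one_mem _

end FF

theorem main (p : ℕ) (hp : p.Prime) (hodd : p ≠ 2) : ∀ n : ℕ, IHyp.{u} p n := by
  intro n
  induction n with
  | zero =>
    intro H _ _ _ x' hlt
    omega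
  | succ n ih =>
    intro H _ _ _ x hlt hc hxp
    have ih' : IHyp.{u} p (Nat.card H) := fun H' _ _ _ x' hlt' => ih H' x' (by omega)
    by_cases htop : DK x ⊤ = ⊤
    · rw [htop, top_inf_eq]
      by_contra hbad
      have c : Ctx x p :=
        { prime := hp
          odd := hodd
          cop := hc
          xp := hxp
          top := htop
          hsub := fun K hK hne y hy hfix => hyp_sub hp ih' hc hxp hK hne hy hfix
          hquot := fun D hDn hD hne => by
            haveI := hDn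
            exact hyp_quot hp ih' hc hxp htop hbad D hD hne }
      exact final_contra c hbad
    · rintro y ⟨hy1, hy2⟩
      have hi : InvS x (⊤ : Subgroup H) := fun _ _ => Subgroup.mem_top _
      exact hyp_sub hp ih' hc hxp (DK_inv x hi) htop (by rw [DK_idem hc hxp]; exact hy1) hy2

end Cfsg.Agent.Flavell
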