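import Mathlib
import Cfsg.Agent.Lib.ClassPPow
import Cfsg.Agent.Lib.PCore
import Cfsg.Agent.Lib.Hall
import Cfsg.Agent.Lib.Frat
import Cfsg.Agent.Lib.CoprimeClass

/-!
# `q`-elements with classes of prime power size: the pair lemma
-/

set_option autoImplicit false
set_option linter.unusedSectionVars false
set_option linter.unusedVariables false
set_option linter.style.haveILetI false

namespace Cfsg.Agent.Lib.QBaerA

open Cfsg Cfsg.Agent.Lib.PCore Cfsg.Agent.Lib.ClassPPow Cfsg.Agent.Lib.CoprimeClass Subgroup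

universe u

variable {G : Type u} [Group G]

theorem pow_conj' (g x : G) (n : ℕ) : (g * x * g⁻¹) ^ n = g * x ^ n * g⁻¹ := by
  simp [conj_pow]

section Finite

variable [Finite G]

/-- **Lemma X**: a `q`-element whose class has `r`-power size lies, modulo `O_r(G)`, in the `q`-core. -/
theorem mk_mem_pCore {q r : ℕ} [hq : Fact q.Prime] [hr : Fact r.Prime] (x : G)
    (hx : ∃ k, orderOf x = q ^ k) (hc : ∃ a, cs x = r ^ a) :
    QuotientGroup.mk' (pCore r G) x ∈ pCore q (G ⧸ pCore r G) := by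
  set D := pCore r G with hD
  let π := QuotientGroup.mk' D
  have hπ : Function.Surjective π := QuotientGroup.mk'_surjective _
  set X : Set (G ⧸ D) := Group.conjugatesOfSet {π x} with hX
  have hXconj : ∀ y ∈ X, ∃ g : G, y = π (g * x * g⁻¹) := by
    intro y hy
    rw [hX, Group.mem_conjugatesOfSet_iff] at hy
    obtain ⟨a, ha, hconj⟩ := hy
    rw [Set.mem_singleton_iff] at ha
    subst ha
    obtain ⟨c, rfl⟩ := isConj_iff.mp hconj
    obtain ⟨g, rfl⟩ := hπ c
    exact ⟨g, by simp⟩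
  have hXcomm : ∀ y ∈ X, ∀ z ∈ X, y * z = z * y := by
    intro y hy z hz
    obtain ⟨g, rfl⟩ := hXconj y hy
    obtain ⟨h, rfl⟩ := hXconj z hz
    have h1 := commutator_conj_mem_pCore (p := r) x hc g h
    have h2 : π ((g * x * g⁻¹) * (h * x * h⁻¹) * (g * x * g⁻¹)⁻¹ * (h * x * h⁻¹)⁻¹) = 1 :=
      (QuotientGroup.eq_one_iff _).mpr h1
    rw [map_mul, map_mul, map_mul, map_inv, map_inv] at h2
    have h3 := mul_inv_eq_one.mp h2
    exact mul_inv_eq_iff_eq_mul.mp h3
  obtain ⟨k, hk⟩ := hx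
  have hXq : ∀ y ∈ X, y ^ (q ^ k) = 1 := by
    intro y hy
    obtain ⟨g, rfl⟩ := hXconj y hy
    rw [← map_pow, pow_conj', ← hk, pow_orderOf_eq_one]
    simp
  have hA : normalClosure ({π x} : Set (G ⧸ D)) ≤ pCore q (G ⧸ D) := by
    apply le_pCore (normalClosure_normal)
    have hCc := Subgroup.isMulCommutative_closure hXcomm
    rintro ⟨y, hy⟩
    have hy' : y ∈ Subgroup.closure X := hy
    have key : ∃ n : ℕ, y ^ (q ^ n) = 1 := by
      induction hy' using Subgroup.closure_induction with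
      | mem a ha => exact ⟨k, hXq a ha⟩
      | one => exact ⟨0, by simp⟩
      | mul a b ha hb iha ihb =>
        obtain ⟨n, hn⟩ := iha (ha)
        obtain ⟨m, hm⟩ := ihb (hb)
        refine ⟨n + m, ?_⟩
        have hab : a * b = b * a := congrArg Subtype.val
          (hCc.is_comm.comm (⟨a, ha⟩ : Subgroup.closure X) ⟨b, hb⟩)
        rw [(show Commute a b from hab).mul_pow]
        rw [pow_add, pow_mul, hn, one_pow, mul_comm (q ^ n), pow_mul, hm, one_pow, one_mul]
      | inv a ha iha =>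
        obtain ⟨n, hn⟩ := iha ha
        exact ⟨n, by rw [inv_pow, hn, inv_one]⟩
    obtain ⟨n, hn⟩ := key
    exact ⟨n, Subtype.ext (by simpa using hn)⟩
  exact hA (subset_normalClosure rfl)

/-- A `q`-element whose class has `q`-power size lies in `O_q(G)`. -/
theorem mem_pCore_of_pow {q : ℕ} [hq : Fact q.Prime] (x : G) (hx : ∃ k, orderOf x = q ^ k)
    (hc : ∃ a, cs x = q ^ a) : x ∈ pCore q G := by
  have h1 := mk_mem_pCore (q := q) (r := q) x hx hc
  rw [pCore_quotient_pCore, mem_bot] at h1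
  exact (QuotientGroup.eq_one_iff x).mp h1

/-- A subgroup of index prime to `q` contains a Sylow `q`-subgroup. -/
theorem exists_sylow_le {q : ℕ} [hq : Fact q.Prime] (H : Subgroup G) (hd : ¬ q ∣ H.index) :
    ∃ Q₁ : Sylow q G, (Q₁ : Subgroup G) ≤ H := by
  obtain ⟨P⟩ : Nonempty (Sylow q G) := inferInstance
  obtain ⟨g, hg⟩ := Cfsg.Agent.Lib.Hall.exists_conj_le_of_not_dvd_index P.2 hd
  refine ⟨g⁻¹ • P, ?_⟩
  intro y hy
  rw [Sylow.coe_subgroup_smul, mem_conj_smul_iff, inv_inv] at hy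
  have h1 := hg hy
  rw [mem_conj_smul_iff] at h1
  have h2 : g⁻¹ * (g * y * g⁻¹) * g = y := by group
  rwa [h2] at h1

/-- A `q`-element commuting with a Sylow `q`-subgroup lies in it. -/
theorem mem_sylow_of_le_cent {q : ℕ} [hq : Fact q.Prime] (Q₁ : Sylow q G) {x : G}
    (hx : ∃ k, orderOf x = q ^ k) (h : (Q₁ : Subgroup G) ≤ centralizer ({x} : Set G)) :
    x ∈ (Q₁ : Subgroup G) := by
  obtain ⟨k, hk⟩ := hx
  have hP : IsPGroup q (zpowers x) := by
    rw [IsPGroup.iff_card, Nat.card_zpowers, hk]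
    exact ⟨k, rfl⟩
  have hle : zpowers x ≤ normalizer ((Q₁ : Subgroup G) : Set G) := by
    rw [zpowers_le, mem_normalizer_iff]
    intro n
    have h3 : ∀ n ∈ (Q₁ : Subgroup G), x * n * x⁻¹ = n := by
      intro n hn
      have := mem_cent.mp (h hn)
      rw [← this]
      group
    constructor
    · intro hn
      rw [h3 n hn]
      exact hn
    · intro hn
      have h4 := h3 _ hn
      have h5 : x * n * x⁻¹ = n := mul_left_cancel (mul_right_cancel h4)
      rw [h5] at hn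
      exact hn
  have h1 := hP.to_sup_of_normal_right' Q₁.2 hle
  have h2 := Q₁.is_maximal' h1 le_sup_right
  have h3 : zpowers x ≤ (Q₁ : Subgroup G) := by
    rw [← h2]
    exact le_sup_left
  exact h3 (mem_zpowers x)

/-- Two `q`-elements whose classes have size prime to `q` commute up to conjugacy. -/
theorem exists_conj_commute {q : ℕ} [hq : Fact q.Prime] {x y : G} (hx : ∃ k, orderOf x = q ^ k)
    (hy : ∃ k, orderOf y = q ^ k) (hdx : ¬ q ∣ cs x) (hdy : ¬ q ∣ cs y) :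
    ∃ g : G, (g * y * g⁻¹) * x = x * (g * y * g⁻¹) := by
  obtain ⟨Q₁, h1⟩ := exists_sylow_le (q := q) _ hdx
  obtain ⟨Q₂, h2⟩ := exists_sylow_le (q := q) _ hdy
  have h3 := mem_sylow_of_le_cent Q₂ hy h2
  obtain ⟨g, hg⟩ := MulAction.exists_smul_eq G Q₂ Q₁
  refine ⟨g, ?_⟩
  have h4 : g * y * g⁻¹ ∈ (Q₁ : Subgroup G) := by
    rw [← hg, Sylow.coe_subgroup_smul, mem_conj_smul_iff]
    have h5 : g⁻¹ * (g * y * g⁻¹) * g = y := by group
    rwa [h5]
  exact mem_cent.mp (h1 h4)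

theorem eq_one_of_pow_pow {z : G} {r s i j : ℕ} (hr : r.Prime) (hs : s.Prime) (hrs : r ≠ s)
    (h1 : z ^ (r ^ i) = 1) (h2 : z ^ (s ^ j) = 1) : z = 1 := by
  have h3 := orderOf_dvd_of_pow_eq_one h1
  have h4 := orderOf_dvd_of_pow_eq_one h2
  have h5 : Nat.Coprime (r ^ i) (s ^ j) := Nat.coprime_pow_primes _ _ hr hs hrs
  have h6 := Nat.eq_one_of_dvd_coprimes h5 h3 h4
  exact orderOf_eq_one_iff.mp h6

theorem qelt_conj {q : ℕ} {y : G} (g : G) (hy : ∃ k, orderOf y = q ^ k) :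
    ∃ k, orderOf (g * y * g⁻¹) = q ^ k := by
  obtain ⟨k, hk⟩ := hy
  refine ⟨k, ?_⟩
  rw [← hk]
  have := MulEquiv.orderOf_eq (MulAut.conj g) y
  simpa using this

theorem qelt_mul {q : ℕ} [hq : Fact q.Prime] {x y : G} (hxy : x * y = y * x)
    (hx : ∃ k, orderOf x = q ^ k) (hy : ∃ k, orderOf y = q ^ k) :
    ∃ k, orderOf (x * y) = q ^ k := by
  obtain ⟨k, hk⟩ := hx
  obtain ⟨l, hl⟩ := hy
  have h1 : (x * y) ^ (q ^ (k + l)) = 1 := by
    rw [(show Commute x y from hxy).mul_pow, pow_add, pow_mul x, ← hk, pow_orderOf_eq_one, one_pow,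
      one_mul, mul_comm, pow_mul, ← hl, pow_orderOf_eq_one, one_pow]
  obtain ⟨i, -, hi⟩ := (Nat.dvd_prime_pow hq.out).mp (orderOf_dvd_of_pow_eq_one h1)
  exact ⟨i, hi⟩

/-- **The pair lemma.** -/
theorem pair_lemma {x y : G} (hxy : x * y = y * x) {r s a b : ℕ} (hr : r.Prime) (hs : s.Prime)
    (hrs : r ≠ s) (ha : 1 ≤ a) (hb : 1 ≤ b) (hcx : cs x = r ^ a) (hcy : cs y = s ^ b)
    (hxyc : ∃ t e, t.Prime ∧ cs (x * y) = t ^ e) :
    ((∀ g, g * y * g⁻¹ * y⁻¹ ∈ stabR x) ∧ IsPGroup r (stabR x)) ∨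
      ((∀ g, g * x * g⁻¹ * x⁻¹ ∈ stabR y) ∧ IsPGroup s (stabR y)) := by
  have hcop : Nat.Coprime (cs x) (cs y) := by
    rw [hcx, hcy]
    exact Nat.coprime_pow_primes _ _ hr hs hrs
  have hle1 : cs x ≤ cs (x * y) := cs_le_cs_mul hcop
  have hle2 : cs y ≤ cs (x * y) := by
    rw [hxy]
    exact cs_le_cs_mul hcop.symm
  have hdvd : cs (x * y) ∣ cs x * cs y := by
    set H := centralizer ({x} : Set G)
    set K := centralizer ({y} : Set G)
    have h1 : H.index ∣ (H ⊓ K).index := index_dvd_of_le inf_le_left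
    have h2 : K.index ∣ (H ⊓ K).index := index_dvd_of_le inf_le_right
    have h3 : H.index * K.index ∣ (H ⊓ K).index := hcop.mul_dvd_of_dvd_of_dvd h1 h2
    have h4 : (H ⊓ K).index = H.index * K.index := by
      apply le_antisymm index_inf_le
      exact Nat.le_of_dvd (Nat.pos_of_ne_zero Subgroup.index_ne_zero_of_finite) h3
    have h5 : H ⊓ K ≤ centralizer ({x * y} : Set G) := by
      intro g hg
      have hg1 : g * x = x * g := mem_cent.mp hg.1
      have hg2 : g * y = y * g := mem_cent.mp hg.2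
      rw [mem_cent, ← mul_assoc, hg1, mul_assoc, hg2, mul_assoc]
    rw [← h4]
    exact index_dvd_of_le h5
  obtain ⟨t, e, ht, hte⟩ := hxyc
  have hstab : ∀ {z : G} {p c : ℕ}, p.Prime → cs z = p ^ c → IsPGroup p (stabR z) := by
    intro z p c hp hz
    have h1 := card_stabR_dvd z
    rw [hz] at h1
    obtain ⟨k, -, hk⟩ := (Nat.dvd_prime_pow hp).mp h1
    haveI : Fact p.Prime := ⟨hp⟩
    exact IsPGroup.of_card hk
  have he : e ≠ 0 := by
    rintro rfl
    rw [pow_zero] at hte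
    rw [hte, hcx] at hle1
    have : 2 ^ 1 ≤ r ^ a := le_trans (Nat.pow_le_pow_left hr.two_le 1)
      (Nat.pow_le_pow_right hr.pos ha)
    omega
  have htd : t ∣ r ^ a * s ^ b := by
    rw [← hcx, ← hcy]
    refine dvd_trans ?_ hdvd
    rw [hte]
    exact dvd_pow_self t he
  have hcases : t = r ∨ t = s := by
    rcases (Nat.Prime.dvd_mul ht).mp htd with h | h
    · exact Or.inl ((Nat.prime_dvd_prime_iff_eq ht hr).mp (ht.dvd_of_dvd_pow h))
    · exact Or.inr ((Nat.prime_dvd_prime_iff_eq ht hs).mp (ht.dvd_of_dvd_pow h))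
  rcases hcases with rfl | rfl
  · left
    have h1 : cs (x * y) ∣ cs x := by
      have h2 : Nat.Coprime (cs (x * y)) (cs y) := by
        rw [hte, hcy]
        exact Nat.coprime_pow_primes _ _ hr hs hrs
      exact h2.dvd_of_dvd_mul_right hdvd
    have h3 : cs (x * y) = cs x := le_antisymm (Nat.le_of_dvd
      (Nat.pos_of_ne_zero Subgroup.index_ne_zero_of_finite) h1) hle1
    exact ⟨fun g => mem_stabR_of_cs_mul hcop h3 g, hstab hr hcx⟩
  · right
    have h1 : cs (x * y) ∣ cs y := by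
      have h2 : Nat.Coprime (cs (x * y)) (cs x) := by
        rw [hte, hcx]
        exact Nat.coprime_pow_primes _ _ hs hr hrs.symm
      refine h2.dvd_of_dvd_mul_left hdvd
    have h3 : cs (x * y) = cs y := le_antisymm (Nat.le_of_dvd
      (Nat.pos_of_ne_zero Subgroup.index_ne_zero_of_finite) h1) hle2
    have h4 : cs (y * x) = cs y := by rw [← hxy, h3]
    exact ⟨fun g => mem_stabR_of_cs_mul hcop.symm h4 g, hstab hs hcy⟩

/-- An element of `r`-power order which modulo `O_s(G)` lies in the `q`-core is trivial. -/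
theorem eq_one_of_three {q r s : ℕ} [hq : Fact q.Prime] [hr : Fact r.Prime] [hs : Fact s.Prime]
    (hrq : r ≠ q) (hrs : r ≠ s) {u : G} {i : ℕ} (hu : u ^ (r ^ i) = 1)
    (h : QuotientGroup.mk' (pCore s G) u ∈ pCore q (G ⧸ pCore s G)) : u = 1 := by
  set π := QuotientGroup.mk' (pCore s G)
  obtain ⟨j, hj⟩ := (isPGroup_pCore (G := G ⧸ pCore s G) q) ⟨π u, h⟩
  have hj' : (π u) ^ (q ^ j) = 1 := by
    have := congrArg Subtype.val hj
    simpa using this
  have h1 : (π u) ^ (r ^ i) = 1 := by rw [← map_pow, hu, map_one]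
  have h2 : π u = 1 := eq_one_of_pow_pow hr.out hq.out hrq h1 hj'
  have h3 : u ∈ pCore s G := (QuotientGroup.eq_one_iff u).mp h2
  obtain ⟨l, hl⟩ := (isPGroup_pCore (G := G) s) ⟨u, h3⟩
  have hl' : u ^ (s ^ l) = 1 := by
    have := congrArg Subtype.val hl
    simpa using this
  exact eq_one_of_pow_pow hr.out hs.out hrs hu hl'

/-- Commutators of a `q`-element with class of `s`-power size map into the `q`-core of `G/O_s(G)`. -/
theorem comm_mem {q s : ℕ} [hq : Fact q.Prime] [hs : Fact s.Prime] {y : G}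
    (hy : ∃ k, orderOf y = q ^ k) (hc : ∃ a, cs y = s ^ a) (g : G) :
    QuotientGroup.mk' (pCore s G) (g * y * g⁻¹ * y⁻¹) ∈ pCore q (G ⧸ pCore s G) := by
  have h1 := mk_mem_pCore (q := q) (r := s) y hy hc
  set π := QuotientGroup.mk' (pCore s G)
  have hn : (pCore q (G ⧸ pCore s G)).Normal := inferInstance
  rw [map_mul, map_mul, map_mul, map_inv, map_inv]
  exact mul_mem (hn.conj_mem _ h1 _) (inv_mem h1)

theorem cs_eq_one_of_comm {y : G} (h : ∀ g, g * y * g⁻¹ * y⁻¹ = 1) : cs y = 1 := by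
  rw [cs_eq_one_iff, mem_center_iff]
  intro g
  have h1 := mul_inv_eq_one.mp (h g)
  exact mul_inv_eq_iff_eq_mul.mp h1

/-- Two non-central `q`-elements with classes of sizes powers of primes different from `q`: the primes
are equal. -/
theorem no_two_primes {q : ℕ} [hq : Fact q.Prime]
    (hBaer : ∀ x : G, (∃ k, orderOf x = q ^ k) → ∃ r a, r.Prime ∧ cs x = r ^ a)
    {x y : G} (hx : ∃ k, orderOf x = q ^ k) (hy : ∃ k, orderOf y = q ^ k) {r s a b : ℕ}
    (hr : r.Prime) (hs : s.Prime) (ha : 1 ≤ a) (hb : 1 ≤ b) (hrq : r ≠ q) (hsq : s ≠ q)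
    (hcx : cs x = r ^ a) (hcy : cs y = s ^ b) : r = s := by
  by_contra hrs
  haveI : Fact r.Prime := ⟨hr⟩
  haveI : Fact s.Prime := ⟨hs⟩
  have hdx : ¬ q ∣ cs x := by
    rw [hcx]
    intro h
    exact hrq ((Nat.prime_dvd_prime_iff_eq hq.out hr).mp (hq.out.dvd_of_dvd_pow h)).symm
  have hdy : ¬ q ∣ cs y := by
    rw [hcy]
    intro h
    exact hsq ((Nat.prime_dvd_prime_iff_eq hq.out hs).mp (hq.out.dvd_of_dvd_pow h)).symm
  obtain ⟨g, hg⟩ := exists_conj_commute hx hy hdx hdy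
  set y₁ := g * y * g⁻¹ with hy₁
  have hy₁q := qelt_conj g hy
  have hcy₁ : cs y₁ = s ^ b := by rw [hy₁, cs_conj, hcy]
  have hxy : x * y₁ = y₁ * x := hg.symm
  have hne1 : ∀ {c : ℕ} {p : ℕ}, p.Prime → 1 ≤ c → p ^ c ≠ 1 := by
    intro c p hp hc h
    have : 2 ^ 1 ≤ p ^ c := le_trans (Nat.pow_le_pow_left hp.two_le 1)
      (Nat.pow_le_pow_right hp.pos hc)
    omega
  rcases pair_lemma hxy hr hs hrs ha hb hcx hcy₁ (hBaer _ (qelt_mul hxy hx hy₁q)) with
    ⟨h1, h2⟩ | ⟨h1, h2⟩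
  · -- commutators of `y₁` are `r`-elements
    apply hne1 hs hb
    rw [← hcy₁]
    apply cs_eq_one_of_comm
    intro t
    obtain ⟨i, hi⟩ := h2 ⟨_, h1 t⟩
    have hi' : (t * y₁ * t⁻¹ * y₁⁻¹) ^ (r ^ i) = 1 := by
      have := congrArg Subtype.val hi
      simpa using this
    exact eq_one_of_three (q := q) (r := r) (s := s) hrq hrs hi'
      (comm_mem hy₁q ⟨b, hcy₁⟩ t)
  · apply hne1 hr ha
    rw [← hcx]
    apply cs_eq_one_of_comm
    intro t
    obtain ⟨i, hi⟩ := h2 ⟨_, h1 t⟩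
    have hi' : (t * x * t⁻¹ * x⁻¹) ^ (s ^ i) = 1 := by
      have := congrArg Subtype.val hi
      simpa using this
    exact eq_one_of_three (q := q) (r := s) (s := r) hsq (Ne.symm hrs) hi'
      (comm_mem hx ⟨a, hcx⟩ t)

end Finite

end Cfsg.Agent.Lib.QBaerA
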