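import Mathlib
import Cfsg.Agent.Lib.CentTools
import Cfsg.Agent.Lib.PCore
import Cfsg.Agent.Lib.QBaerA
import Cfsg.Agent.Lib.TwoRegB

/-!
# Class sizes `1, n, m, nm` with `n, m` coprime: basic tools

`Hyp n m G`.  Elements of class sizes `n` and `m` can be moved simultaneously.  If the primary elements
`a`, `y` of class sizes `n`, `m` satisfy `cs (a * y) = n`, then the conjugates of `y` commute, and the
right stabilizer of the class of `a` contains a nontrivial normal `s`-subgroup `L` whose nontrivial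
elements do not commute with `a` and have class size `m`; and `m < n` (`core1`).
-/

set_option autoImplicit false
set_option linter.unusedSectionVars false
set_option linter.unusedVariables false
set_option linter.style.haveILetI false

namespace Cfsg.Agent.Lib.FourA

open Subgroup
open Cfsg (pCore)
open Cfsg.Agent.Lib.CoprimeClass
open Cfsg.Agent.Lib.CentTools
open Cfsg.Agent.Lib.PCore (le_pCore isPGroup_pCore pCore_le_sylow)

variable {G : Type*} [Group G] [Finite G]

/-- The hypothesis. -/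
structure Hyp (n m : ℕ) (G : Type*) [Group G] : Prop where
  hn : 1 < n
  hm : 1 < m
  cop : n.Coprime m
  vals : ∀ x : G, cs x = 1 ∨ cs x = n ∨ cs x = m ∨ cs x = n * m
  exn : ∃ x : G, cs x = n
  exm : ∃ x : G, cs x = m
  exnm : ∃ x : G, cs x = n * m

theorem Hyp.symm {n m : ℕ} (h : Hyp n m G) : Hyp m n G where
  hn := h.hm
  hm := h.hn
  cop := h.cop.symm
  vals := fun x => by
    rcases h.vals x with h1 | h1 | h1 | h1
    · exact Or.inl h1
    · exact Or.inr (Or.inr (Or.inl h1))
    · exact Or.inr (Or.inl h1)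
    · exact Or.inr (Or.inr (Or.inr (by rw [h1, mul_comm])))
  exn := h.exm
  exm := h.exn
  exnm := by
    obtain ⟨x, hx⟩ := h.exnm
    exact ⟨x, by rw [hx, mul_comm]⟩

theorem eq_of_le_of_index_eq {A B : Subgroup G} (hle : A ≤ B) (h : A.index = B.index) : A = B := by
  apply le_antisymm hle
  have h2 := relIndex_mul_index hle
  rw [h] at h2
  have hne : B.index ≠ 0 := index_ne_zero_of_finite
  have h3 : A.relIndex B = 1 := by
    have : A.relIndex B * B.index = 1 * B.index := by rw [h2, one_mul]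
    exact Nat.eq_of_mul_eq_mul_right (Nat.pos_of_ne_zero hne) this
  exact relIndex_eq_one.1 h3

theorem cs_dvd_of_Cn_le {a b : G} (h : Cn a ≤ Cn b) : cs b ∣ cs a := index_dvd_of_le h

theorem Cn_eq_of_le {a b : G} (h : Cn a ≤ Cn b) (he : cs a = cs b) : Cn a = Cn b :=
  eq_of_le_of_index_eq h he

theorem mem_Cn_self (x : G) : x ∈ Cn x := mem_Cn.2 rfl

theorem commute_of_mem_Cn {x a : G} (h : a ∈ Cn x) : Commute a x := mem_Cn.1 h

section Values

variable {n m : ℕ} (h : Hyp n m G)
include h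

theorem ne_one_n : n ≠ 1 := h.hn.ne'
theorem ne_one_m : m ≠ 1 := h.hm.ne'

theorem not_m_dvd_n : ¬ m ∣ n := by
  intro hd
  have := Nat.eq_one_of_dvd_coprimes h.cop hd dvd_rfl
  exact h.hm.ne' this

theorem cs_of_dvd_n {x : G} (hx : cs x ∣ n) : cs x = 1 ∨ cs x = n := by
  rcases h.vals x with h1 | h1 | h1 | h1
  · exact Or.inl h1
  · exact Or.inr h1
  · rw [h1] at hx
    exact absurd hx (not_m_dvd_n h)
  · rw [h1] at hx
    exact absurd ((Dvd.intro_left n rfl).trans hx) (not_m_dvd_n h)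

theorem cs_of_dvd_m {x : G} (hx : cs x ∣ m) : cs x = 1 ∨ cs x = m := by
  have := cs_of_dvd_n h.symm hx
  exact this

theorem cs_of_dvd_n_noncentral {x : G} (hx : cs x ∣ n) (hz : x ∉ center G) : cs x = n := by
  rcases cs_of_dvd_n h hx with h1 | h1
  · exact absurd (cs_eq_one_iff.1 h1) hz
  · exact h1

theorem cs_of_dvd_m_noncentral {x : G} (hx : cs x ∣ m) (hz : x ∉ center G) : cs x = m :=
  cs_of_dvd_n_noncentral h.symm hx hz

/-- A value divisible by `n`. -/
theorem cs_of_n_dvd {x : G} (hx : n ∣ cs x) : cs x = n ∨ cs x = n * m := by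
  rcases h.vals x with h1 | h1 | h1 | h1
  · rw [h1, Nat.dvd_one] at hx
    exact absurd hx (ne_one_n h)
  · exact Or.inl h1
  · rw [h1] at hx
    have := Nat.eq_one_of_dvd_coprimes h.cop dvd_rfl hx
    exact absurd this (ne_one_n h)
  · exact Or.inr h1

theorem cs_of_m_dvd {x : G} (hx : m ∣ cs x) : cs x = m ∨ cs x = n * m := by
  have := cs_of_n_dvd h.symm hx
  rcases this with h1 | h1
  · exact Or.inl h1
  · exact Or.inr (by rw [h1, mul_comm])

theorem lt_nm_n : n < n * m := by
  have h1 := h.hn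
  have h2 := h.hm
  nlinarith

theorem lt_nm_m : m < n * m := by
  have h1 := h.hn
  have h2 := h.hm
  nlinarith

/-- Primary elements of class size `n`. -/
theorem exists_primary_of_cs {x : G} (hx : cs x = n) :
    ∃ (e r i : ℕ), r.Prime ∧ (x ^ e) ^ (r ^ i) = 1 ∧ cs (x ^ e) = n := by
  have hz : x ∉ center G := by
    intro hz
    have := cs_eq_one_iff.2 hz
    rw [hx] at this
    exact ne_one_n h this
  obtain ⟨e, r, i, hr, hi, hnot⟩ := exists_primary_pow_not_mem (center G) x hz
  exact ⟨e, r, i, hr, hi, cs_of_dvd_n_noncentral h (hx ▸ cs_pow_dvd x e) hnot⟩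

end Values

/-- `x` commutes with all the conjugates of `y`, when the class sizes are coprime. -/
theorem comm_conj {x y : G} (hco : Nat.Coprime (cs x) (cs y)) (hc : Commute x y) (g : G) :
    Commute x (g * y * g⁻¹) := by
  obtain ⟨c, hc', d, hd, hg⟩ := exists_mul_of_coprime _ _ hco g
  rw [mem_cent] at hc' hd
  have h1 : g * y * g⁻¹ = c * y * c⁻¹ := by
    rw [hg]
    calc c * d * y * (c * d)⁻¹ = c * (d * y) * d⁻¹ * c⁻¹ := by group
      _ = c * (y * d) * d⁻¹ * c⁻¹ := by rw [hd]
      _ = _ := by group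
  rw [h1]
  have h2 : c⁻¹ * x * c = x := by
    calc c⁻¹ * x * c = c⁻¹ * (x * c) := by group
      _ = c⁻¹ * (c * x) := by rw [hc']
      _ = x := by group
  show x * (c * y * c⁻¹) = c * y * c⁻¹ * x
  calc x * (c * y * c⁻¹) = c * (c⁻¹ * x * c) * y * c⁻¹ := by group
    _ = c * (x * y) * c⁻¹ := by rw [h2]; group
    _ = c * (y * x) * c⁻¹ := by rw [hc.eq]
    _ = c * y * (c⁻¹ * x * c) * c⁻¹ := by rw [h2]; group
    _ = c * y * c⁻¹ * x := by group

/-- Non-commuting elements of coprime class sizes. -/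
theorem cs_mul_of_not_comm {n m : ℕ} (h : Hyp n m G) {a y : G} (ha : cs a = n) (hy : cs y = m)
    (hnc : ¬ Commute a y) : cs (a * y) = n ∨ cs (a * y) = m := by
  rcases h.vals (a * y) with h1 | h1 | h1 | h1
  · exfalso
    have hz := cs_eq_one_iff.1 h1
    apply hnc
    have h2 := mem_center_iff.1 hz a
    have h3 : a * (a * y) = a * (y * a) := by
      rw [h2]; group
    exact mul_left_cancel h3
  · exact Or.inl h1
  · exact Or.inr h1
  · exfalso
    have hle : Cn a ⊓ Cn y ≤ Cn (a * y) := by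
      intro g hg
      have h1' : Commute g a := mem_Cn.1 (mem_inf.1 hg).1
      have h2' : Commute g y := mem_Cn.1 (mem_inf.1 hg).2
      exact mem_Cn.2 (h1'.mul_right h2')
    have h2 : n * m ≤ (Cn a ⊓ Cn y).index := by
      have : (Cn (a * y)).index ∣ (Cn a ⊓ Cn y).index := index_dvd_of_le hle
      rw [show (Cn (a * y)).index = n * m from h1] at this
      exact Nat.le_of_dvd (Nat.pos_of_ne_zero index_ne_zero_of_finite) this
    have h3 : (Cn a ⊓ Cn y).index ≤ n * m := by
      have := index_inf_le (H := Cn a) (K := Cn y)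
      rw [show (Cn a).index = n from ha, show (Cn y).index = m from hy] at this
      exact this
    have h4 : (Cn a ⊓ Cn y).index = (Cn (a * y)).index := by
      rw [show (Cn (a * y)).index = n * m from h1]
      omega
    have h5 := eq_of_le_of_index_eq hle h4
    have h6 : a * y ∈ Cn a ⊓ Cn y := by
      rw [h5]; exact mem_Cn_self _
    have h7 : (a * y) * a = a * (a * y) := mem_Cn.1 h6.1
    apply hnc
    have h8 : a * (y * a) = a * (a * y) := by
      rw [← h7]; group
    exact (mul_left_cancel h8).symm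

/-- A normal subgroup contains the class of its elements, and `1` is not in it. -/
theorem cs_lt_card {L : Subgroup G} (hL : L.Normal) {w : G} (hw : w ∈ L) (hw1 : w ≠ 1) :
    cs w < Nat.card L := by
  classical
  haveI := Fintype.ofFinite {a : G // IsConj w a}
  haveI := Fintype.ofFinite L
  rw [← card_conj w, Nat.card_eq_fintype_card, Nat.card_eq_fintype_card]
  let f : {a : G // IsConj w a} → L := fun a => ⟨a.1, by
    obtain ⟨c, hc⟩ := isConj_iff.1 a.2
    rw [← hc]
    exact hL.conj_mem w hw c⟩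
  have hf : Function.Injective f := by
    intro a b hab
    have h1 : ((f a : L) : G) = f b := congrArg Subtype.val hab
    exact Subtype.ext h1
  refine Fintype.card_lt_of_injective_of_notMem f hf (b := 1) ?_
  rintro ⟨a, ha⟩
  have h1 : a.1 = 1 := congrArg Subtype.val ha
  obtain ⟨c, hc⟩ := isConj_iff.1 a.2
  rw [h1] at hc
  apply hw1
  have : c * w = 1 * c := by
    calc c * w = c * w * c⁻¹ * c := by group
      _ = 1 * c := by rw [hc]
  have h2 : c * w = c * 1 := by rw [this]; group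
  exact mul_left_cancel h2

/-- An `s`-element with pairwise commuting conjugates lies in `O_s(G)`. -/
theorem mem_pCore_of_comm {s : ℕ} [Fact s.Prime] {y : G} {j : ℕ} (hy : y ^ (s ^ j) = 1)
    (hK : ∀ g g' : G, Commute (g * y * g⁻¹) (g' * y * g'⁻¹)) : y ∈ pCore s G := by
  set X : Set G := Group.conjugatesOfSet {y} with hX
  have hXconj : ∀ u ∈ X, ∃ g : G, u = g * y * g⁻¹ := by
    intro u hu
    rw [hX, Group.mem_conjugatesOfSet_iff] at hu
    obtain ⟨a, ha, hconj⟩ := hu
    rw [Set.mem_singleton_iff] at ha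
    subst ha
    obtain ⟨c, rfl⟩ := isConj_iff.1 hconj
    exact ⟨c, rfl⟩
  have hXcomm : ∀ u ∈ X, ∀ v ∈ X, u * v = v * u := by
    intro u hu v hv
    obtain ⟨g, rfl⟩ := hXconj u hu
    obtain ⟨g', rfl⟩ := hXconj v hv
    exact hK g g'
  have hXs : ∀ u ∈ X, u ^ (s ^ j) = 1 := by
    intro u hu
    obtain ⟨g, rfl⟩ := hXconj u hu
    rw [conj_pow, hy]
    group
  have hA : normalClosure ({y} : Set G) ≤ pCore s G := by
    apply le_pCore (normalClosure_normal)
    have hCc := Subgroup.isMulCommutative_closure hXcomm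
    rintro ⟨u, hu⟩
    have hu' : u ∈ Subgroup.closure X := hu
    have key : ∃ n : ℕ, u ^ (s ^ n) = 1 := by
      induction hu' using Subgroup.closure_induction with
      | mem a ha => exact ⟨j, hXs a ha⟩
      | one => exact ⟨0, by simp⟩
      | mul a b ha hb iha ihb =>
        obtain ⟨n, hn⟩ := iha (ha)
        obtain ⟨m, hm⟩ := ihb (hb)
        refine ⟨n + m, ?_⟩
        have hab : a * b = b * a := congrArg Subtype.val
          (hCc.is_comm.comm (⟨a, ha⟩ : Subgroup.closure X) ⟨b, hb⟩)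
        rw [(show Commute a b from hab).mul_pow]
        rw [pow_add, pow_mul, hn, one_pow, mul_comm (s ^ n), pow_mul, hm, one_pow, one_mul]
      | inv a ha iha =>
        obtain ⟨n, hn⟩ := iha ha
        exact ⟨n, by rw [inv_pow, hn, inv_one]⟩
    obtain ⟨n, hn⟩ := key
    exact ⟨n, Subtype.ext (by simpa using hn)⟩
  exact hA (subset_normalClosure rfl)

/-- Commuting elements of powers of distinct primes have the product order. -/
theorem eq_one_of_isConj_mul {r s : ℕ} (hr : r.Prime) (hs : s.Prime) (hrs : r ≠ s) {a w : G} {i j : ℕ}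
    (ha : a ^ (r ^ i) = 1) (hw : w ^ (s ^ j) = 1) (hc : Commute a w) (hconj : IsConj a (a * w)) :
    w = 1 := by
  have hco : (orderOf a).Coprime (orderOf w) := by
    have h1 : (r ^ i).Coprime (s ^ j) := Nat.Coprime.pow _ _ ((Nat.coprime_primes hr hs).2 hrs)
    exact Nat.Coprime.coprime_dvd_left (orderOf_dvd_of_pow_eq_one ha)
      (Nat.Coprime.coprime_dvd_right (orderOf_dvd_of_pow_eq_one hw) h1)
  have h1 := hc.orderOf_mul_eq_mul_orderOf_of_coprime hco
  obtain ⟨c, he⟩ := isConj_iff.1 hconj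
  have h2 : orderOf (a * w) = orderOf a := by
    rw [← he, orderOf_conj']
  rw [h2] at h1
  have h3 : orderOf a * 1 = orderOf a * orderOf w := by rw [mul_one]; exact h1
  have h4 := Nat.eq_of_mul_eq_mul_left (orderOf_pos a) h3
  exact orderOf_eq_one_iff.1 h4.symm

theorem core1 {n m : ℕ} (h : Hyp n m G) {r s : ℕ} [Fact r.Prime] [Fact s.Prime] (hrs : r ≠ s) {a y : G}
    {i j : ℕ} (ha : a ^ (r ^ i) = 1) (hy : y ^ (s ^ j) = 1) (hcsa : cs a = n) (hcsy : cs y = m)
    (hay : cs (a * y) = n) :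
    m < n ∧ s ∣ n ∧ (∀ g g' : G, Commute (g * y * g⁻¹) (g' * y * g'⁻¹)) ∧
    ∃ L : Subgroup G, L.Normal ∧ L ≠ ⊥ ∧ IsPGroup s L ∧ (∀ w ∈ L, w ≠ 1 → ¬ Commute w a) ∧
      ∀ w ∈ L, w ≠ 1 → cs w = m := by
  have hco : Nat.Coprime (cs a) (cs y) := by rw [hcsa, hcsy]; exact h.cop
  have hS : ∀ g, g * y * g⁻¹ * y⁻¹ ∈ stabR a :=
    mem_stabR_of_cs_mul hco (by rw [hay, hcsa])
  have hSdvd : Nat.card (stabR a) ∣ n := hcsa ▸ card_stabR_dvd a
  have hSco : Nat.Coprime (Nat.card (stabR a)) m :=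
    Nat.Coprime.coprime_dvd_left hSdvd h.cop
  have hSC : ∀ y' : G, cs y' = m → stabR a ≤ Cn y' :=
    fun y' hy' => le_centralizer_of_coprime (stabR a) y' (by rw [hy']; exact hSco)
  have hcomm0 : ∀ g, Commute y (g * y * g⁻¹) := by
    intro g
    have h1 : Commute (g * y * g⁻¹ * y⁻¹) y := mem_Cn.1 (hSC y hcsy (hS g))
    have h2 : g * y * g⁻¹ = (g * y * g⁻¹ * y⁻¹) * y := by group
    rw [h2]
    exact (h1.mul_left (Commute.refl y)).symm
  have hK : ∀ g g' : G, Commute (g * y * g⁻¹) (g' * y * g'⁻¹) := by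
    intro g g'
    have h1 : y * ((g⁻¹ * g') * y * (g⁻¹ * g')⁻¹) = ((g⁻¹ * g') * y * (g⁻¹ * g')⁻¹) * y := hcomm0 _
    show (g * y * g⁻¹) * (g' * y * g'⁻¹) = (g' * y * g'⁻¹) * (g * y * g⁻¹)
    calc (g * y * g⁻¹) * (g' * y * g'⁻¹) = g * (y * ((g⁻¹ * g') * y * (g⁻¹ * g')⁻¹)) * g⁻¹ := by group
      _ = g * (((g⁻¹ * g') * y * (g⁻¹ * g')⁻¹) * y) * g⁻¹ := by rw [h1]
      _ = _ := by group
  have hyO : y ∈ pCore s G := mem_pCore_of_comm hy hK
  haveI hO : (pCore s G).Normal := inferInstance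
  let L : Subgroup G := stabR a ⊓ pCore s G
  have hLn : L.Normal := Subgroup.normal_inf_normal _ _
  have hLp : IsPGroup s L := (isPGroup_pCore (G := G) s).to_le inf_le_right
  have hmemL : ∀ g, g * y * g⁻¹ * y⁻¹ ∈ L := fun g =>
    ⟨hS g, (pCore s G).mul_mem (hO.conj_mem y hyO g) ((pCore s G).inv_mem hyO)⟩
  have hyz : y ∉ center G := by
    intro hz
    have := cs_eq_one_iff.2 hz
    rw [hcsy] at this
    exact ne_one_m h this
  obtain ⟨g₀, hg₀⟩ : ∃ g₀ : G, g₀ * y ≠ y * g₀ := by
    by_contra hcon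
    push Not at hcon
    exact hyz (mem_center_iff.2 hcon)
  have hw₀ : g₀ * y * g₀⁻¹ * y⁻¹ ≠ 1 := by
    intro h1
    apply hg₀
    calc g₀ * y = (g₀ * y * g₀⁻¹ * y⁻¹) * (y * g₀) := by group
      _ = y * g₀ := by rw [h1, one_mul]
  have hLbot : L ≠ ⊥ := by
    intro hb
    have := hmemL g₀
    rw [hb, mem_bot] at this
    exact hw₀ this
  have hLa : ∀ w ∈ L, w ≠ 1 → ¬ Commute w a := by
    intro w hw hw1 hc
    obtain ⟨k, hk⟩ := exists_pow_of_isPGroup hLp hw
    have hconj : IsConj a (a * w) := (mem_stabR.1 hw.1 a).1 (IsConj.refl a)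
    exact hw1 (eq_one_of_isConj_mul Fact.out Fact.out hrs ha hk hc.symm hconj)
  have hLcard : Nat.card L ∣ n :=
    (card_dvd_of_le inf_le_left).trans hSdvd
  have hLle : Nat.card L ≤ n := Nat.le_of_dvd (by have := h.hn; omega) hLcard
  have hLm : ∀ w ∈ L, w ≠ 1 → cs w < n ∧ cs w = m := by
    intro w hw hw1
    have hlt : cs w < n := (cs_lt_card hLn hw hw1).trans_le hLle
    have hz : w ∉ center G := by
      intro hz
      exact hLa w hw hw1 (mem_center_iff.1 hz a).symm
    rcases h.vals w with h1 | h1 | h1 | h1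
    · exact absurd (cs_eq_one_iff.1 h1) hz
    · omega
    · exact ⟨hlt, h1⟩
    · have := lt_nm_n h
      omega
  refine ⟨?_, ?_, hK, L, hLn, hLbot, hLp, hLa, fun w hw hw1 => (hLm w hw hw1).2⟩
  · obtain ⟨h1, h2⟩ := hLm _ (hmemL g₀) hw₀
    omega
  · obtain ⟨k, hk⟩ := IsPGroup.iff_card.1 hLp
    have hk0 : k ≠ 0 := by
      rintro rfl
      rw [pow_zero] at hk
      exact hLbot (Subgroup.card_eq_one.1 hk)
    exact (dvd_pow_self s hk0).trans (hk ▸ hLcard)

end Cfsg.Agent.Lib.FourA
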