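import Mathlib
import Cfsg.Agent.Lib.FourA

/-!
# Class sizes `1, n, m, nm`: elements of class sizes `n` and `m` commute
-/

set_option autoImplicit false
set_option linter.unusedSectionVars false
set_option linter.unusedVariables false
set_option linter.style.haveILetI false

namespace Cfsg.Agent.Lib.FourB

open Subgroup
open Cfsg (pCore)
open Cfsg.Agent.Lib.CoprimeClass
open Cfsg.Agent.Lib.CentTools
open Cfsg.Agent.Lib.PCore (le_pCore isPGroup_pCore pCore_le_sylow)
open Cfsg.Agent.Lib.FourA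

variable {G : Type*} [Group G] [Finite G]

theorem cs_conj' (g t : G) : cs (t⁻¹ * g * t) = cs g := by
  have := cs_conj t⁻¹ g
  rwa [inv_inv] at this

theorem isPGroup_zpowers {s : ℕ} {u : G} {k : ℕ} (hk : u ^ (s ^ k) = 1) : IsPGroup s (zpowers u) := by
  rintro ⟨x, hx⟩
  obtain ⟨i, rfl⟩ := mem_zpowers_iff.1 hx
  refine ⟨k, Subtype.ext ?_⟩
  show (u ^ i) ^ (s ^ k) = 1
  rw [← zpow_natCast, ← zpow_mul, mul_comm, zpow_mul, zpow_natCast, hk, one_zpow]

theorem coprime_orders {r s : ℕ} (hr : r.Prime) (hs : s.Prime) (hrs : r ≠ s) {a w : G} {i j : ℕ}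
    (ha : a ^ (r ^ i) = 1) (hw : w ^ (s ^ j) = 1) : (orderOf a).Coprime (orderOf w) := by
  have h1 : (r ^ i).Coprime (s ^ j) := Nat.Coprime.pow _ _ ((Nat.coprime_primes hr hs).2 hrs)
  exact Nat.Coprime.coprime_dvd_left (orderOf_dvd_of_pow_eq_one ha)
    (Nat.Coprime.coprime_dvd_right (orderOf_dvd_of_pow_eq_one hw) h1)

/-- The Sylow subgroup of the centralizer when it is central. -/
theorem exists_T0 {s : ℕ} [Fact s.Prime] (a : G)
    (hc : ∀ (v : G) (k : ℕ), v ^ (s ^ k) = 1 → Commute v a → v ∈ center G) :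
    ∃ T₀ : Subgroup G, IsPGroup s T₀ ∧ T₀ ≤ center G ∧
      ∀ T : Subgroup G, IsPGroup s T → Nat.card T ∣ Nat.card (Cn a) → Nat.card T ≤ Nat.card T₀ := by
  let S : Sylow s (Cn a) := default
  let T₀ : Subgroup G := (S : Subgroup (Cn a)).map (Cn a).subtype
  have hp : IsPGroup s T₀ := S.2.map _
  have hcard : Nat.card T₀ = Nat.card (S : Subgroup (Cn a)) :=
    card_map_of_injective (Cn a).subtype_injective
  refine ⟨T₀, hp, ?_, ?_⟩
  · rintro x ⟨z, hz, rfl⟩
    obtain ⟨k, hk⟩ := exists_pow_of_isPGroup S.2 hz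
    refine hc _ k ?_ (mem_Cn.1 z.2)
    show (z : G) ^ (s ^ k) = 1
    exact_mod_cast congrArg Subtype.val hk
  · intro T hT hd
    obtain ⟨e, he⟩ := IsPGroup.iff_card.1 hT
    rw [he] at hd ⊢
    have h1 := S.pow_dvd_card_of_pow_dvd_card hd
    rw [hcard]
    exact Nat.le_of_dvd Nat.card_pos h1

theorem card_Cn_dvd {n m : ℕ} {a g : G} (ha : cs a = n) (hn : 0 < n) (hg : cs g = n ∨ cs g = n * m) :
    Nat.card (Cn g) ∣ Nat.card (Cn a) := by
  have h1 := (Cn g).index_mul_card
  have h2 := (Cn a).index_mul_card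
  rw [show (Cn a).index = n from ha] at h2
  rcases hg with h3 | h3
  · rw [show (Cn g).index = n from h3] at h1
    have : n * Nat.card (Cn g) = n * Nat.card (Cn a) := h1.trans h2.symm
    rw [Nat.eq_of_mul_eq_mul_left hn this]
  · rw [show (Cn g).index = n * m from h3] at h1
    have : n * (m * Nat.card (Cn g)) = n * Nat.card (Cn a) := by rw [← mul_assoc]; exact h1.trans h2.symm
    rw [← Nat.eq_of_mul_eq_mul_left hn this]
    exact Dvd.intro_left _ rfl

/-- `H.index = H.relIndex W * (H ⊔ W).index` for `W` normal. -/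
theorem index_eq_relIndex_mul (H W : Subgroup G) [hW : W.Normal] :
    H.index = H.relIndex W * (H ⊔ W).index := by
  have h1 := relIndex_mul_index (inf_le_left : H ⊓ W ≤ H)
  have h2 := relIndex_mul_index (inf_le_right : H ⊓ W ≤ W)
  have h3 := relIndex_mul_index (le_sup_right : W ≤ H ⊔ W)
  rw [inf_relIndex_left] at h1
  rw [inf_relIndex_right] at h2
  rw [relIndex_sup_right] at h3
  have hpos : 0 < W.relIndex H := by
    apply Nat.pos_of_ne_zero
    intro h0
    rw [h0, zero_mul] at h1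
    exact (index_ne_zero_of_finite (H := H ⊓ W)) h1.symm
  have h4 : W.relIndex H * H.index = W.relIndex H * (H.relIndex W * (H ⊔ W).index) := by
    calc W.relIndex H * H.index = H.relIndex W * W.index := by rw [h1, h2]
      _ = H.relIndex W * (W.relIndex H * (H ⊔ W).index) := by rw [h3]
      _ = _ := by ring
  exact Nat.eq_of_mul_eq_mul_left hpos h4

section Core

variable {n m : ℕ} (h : Hyp n m G) {a : G}
include h

theorem step3 (hmn : m < n) (hcsa : cs a = n) {L : Subgroup G} (hLn : L.Normal) (hLbot : L ≠ ⊥)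
    (hLa : ∀ w ∈ L, w ≠ 1 → ¬ Commute w a) (hLm : ∀ w ∈ L, w ≠ 1 → cs w = m) {u : G} (hu : cs u = m) :
    ¬ Commute u a := by
  intro hua
  obtain ⟨w, hw, hw1⟩ := (L.bot_or_exists_ne_one).resolve_left hLbot
  have hcsw := hLm w hw hw1
  have hco : Nat.Coprime (cs a) (cs u) := by rw [hcsa, hu]; exact h.cop
  have hinv : ∀ g, Commute a (g * u * g⁻¹) := fun g => comm_conj hco hua.symm g
  -- elements of `L` commuting with `a` are trivial
  have hL1 : ∀ t ∈ L, Commute t a → t = 1 := by
    intro t ht hc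
    by_contra hne
    exact hLa t ht hne hc
  have hwu : Commute w u := by
    have hc : w * u * w⁻¹ * u⁻¹ = 1 := by
      apply hL1
      · have e : w * u * w⁻¹ * u⁻¹ = w * (u * w⁻¹ * u⁻¹) := by group
        rw [e]
        exact L.mul_mem hw (hLn.conj_mem _ (L.inv_mem hw) u)
      · have h1 := hinv w
        exact (h1.mul_right (hua.symm.inv_right)).symm
    calc w * u = (w * u * w⁻¹ * u⁻¹) * (u * w) := by group
      _ = u * w := by rw [hc, one_mul]
  have hC : Cn (w * u) ≤ Cn w ⊓ Cn u := by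
    intro g hg
    rw [mem_Cn] at hg
    have e1 : (g * w * g⁻¹) * (g * u * g⁻¹) = w * u := by
      calc (g * w * g⁻¹) * (g * u * g⁻¹) = g * (w * u) * g⁻¹ := by group
        _ = (w * u) * g * g⁻¹ := by rw [← hg]
        _ = _ := by group
    have ht : w⁻¹ * (g * w * g⁻¹) = 1 := by
      apply hL1
      · exact L.mul_mem (L.inv_mem hw) (hLn.conj_mem _ hw g)
      · have e2 : w⁻¹ * (g * w * g⁻¹) = u * (g * u * g⁻¹)⁻¹ := by
          rw [eq_mul_inv_iff_mul_eq, mul_assoc, e1]
          group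
        rw [e2]
        exact (hua.symm.mul_right (hinv g).inv_right).symm |>.symm.symm
    have e3 : g * w * g⁻¹ = w := (inv_mul_eq_one.1 ht).symm
    have e4 : g * u * g⁻¹ = u := by
      rw [e3] at e1
      exact mul_left_cancel e1
    refine ⟨mem_Cn.2 ?_, mem_Cn.2 ?_⟩
    · calc g * w = (g * w * g⁻¹) * g := by group
        _ = w * g := by rw [e3]
    · calc g * u = (g * u * g⁻¹) * g := by group
        _ = u * g := by rw [e4]
  have hC' : Cn w ⊓ Cn u ≤ Cn (w * u) := by
    intro g hg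
    have h1' : Commute g w := mem_Cn.1 (mem_inf.1 hg).1
    have h2' : Commute g u := mem_Cn.1 (mem_inf.1 hg).2
    exact mem_Cn.2 (h1'.mul_right h2')
  have hd : m ∣ cs (w * u) := hcsw ▸ cs_dvd_of_Cn_le (hC.trans inf_le_left)
  rcases cs_of_m_dvd h hd with h1 | h1
  · have h2 : Cn (w * u) = Cn u :=
      Cn_eq_of_le (hC.trans inf_le_right) (h1.trans hu.symm)
    have h3 : a ∈ Cn (w * u) := by rw [h2]; exact mem_Cn.2 hua.symm
    have h4 := (hC h3).1
    exact hLa w hw hw1 (mem_Cn.1 h4).symm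
  · have h2 : n * m ≤ (Cn w ⊓ Cn u).index := by
      have h3 : cs (w * u) ∣ (Cn w ⊓ Cn u).index := index_dvd_of_le hC'
      rw [h1] at h3
      exact Nat.le_of_dvd (Nat.pos_of_ne_zero index_ne_zero_of_finite) h3
    have h3 : (Cn w ⊓ Cn u).index ≤ m * m := by
      have := index_inf_le (H := Cn w) (K := Cn u)
      rwa [show (Cn w).index = m from hcsw, show (Cn u).index = m from hu] at this
    have := h.hm
    have h4 : n * m ≤ m * m := h2.trans h3
    have h5 : n ≤ m := Nat.le_of_mul_le_mul_right h4 (by omega)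
    omega

theorem step4 {r s : ℕ} [Fact r.Prime] [Fact s.Prime] (hrs : r ≠ s) (hsm : ¬ s ∣ m) {i : ℕ}
    (ha : a ^ (r ^ i) = 1) (hcsa : cs a = n) (hY : ∀ u : G, cs u = m → ¬ Commute u a) {y : G} {j : ℕ}
    (hy : y ^ (s ^ j) = 1) (hcsy : cs y = m) {v : G} {k : ℕ} (hv : v ^ (s ^ k) = 1)
    (hva : Commute v a) : v ∈ center G := by
  by_contra hvz
  obtain ⟨P₁, hP₁⟩ := Cfsg.Agent.Lib.QBaerA.exists_sylow_le (q := s) (Cn y)
    (by rw [show (Cn y).index = m from hcsy]; exact hsm)
  obtain ⟨P₂, hP₂⟩ := (isPGroup_zpowers hv).exists_le_sylow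
  obtain ⟨g, hg⟩ := MulAction.exists_smul_eq G P₁ P₂
  obtain ⟨y', hy'⟩ : ∃ y', y' = g * y * g⁻¹ := ⟨_, rfl⟩
  have hy'v : Commute y' v := by
    have hv2 : v ∈ (P₂ : Subgroup G) := hP₂ (mem_zpowers v)
    rw [← hg, Sylow.smul_def, Sylow.pointwise_smul_def] at hv2
    have hv3 : g⁻¹ * v * g ∈ (P₁ : Subgroup G) := Cfsg.Agent.Lib.PCore.mem_conj_smul_iff.1 hv2
    have hv4 : Commute (g⁻¹ * v * g) y := mem_Cn.1 (hP₁ hv3)
    have hv5 : (g⁻¹ * v * g) * y = y * (g⁻¹ * v * g) := hv4
    show y' * v = v * y'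
    rw [hy']
    calc g * y * g⁻¹ * v = g * (y * (g⁻¹ * v * g)) * g⁻¹ := by group
      _ = g * ((g⁻¹ * v * g) * y) * g⁻¹ := by rw [hv5]
      _ = _ := by group
  have hcsy' : cs y' = m := by rw [hy', cs_conj]; exact hcsy
  have hy'a := hY y' hcsy'
  have hcsv : cs v = n ∨ cs v = n * m := by
    rcases h.vals v with h1 | h1 | h1 | h1
    · exact absurd (cs_eq_one_iff.1 h1) hvz
    · exact Or.inl h1
    · exact absurd hva (hY v h1)
    · exact Or.inr h1
  have hco := coprime_orders (Fact.out : s.Prime) (Fact.out : r.Prime) (Ne.symm hrs) hv ha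
  have hC : Cn (v * a) = Cn v ⊓ Cn a := Cn_mul hva hco
  obtain ⟨d, hd⟩ : ∃ d, d = (Cn a).relIndex (Cn v) := ⟨_, rfl⟩
  have hrel : d * cs v = cs (v * a) := by
    have h1 := relIndex_mul_index (inf_le_left : Cn v ⊓ Cn a ≤ Cn v)
    rw [inf_relIndex_left, ← hd, ← hC] at h1
    exact h1
  have hd1 : d ≠ 1 := by
    rw [hd]
    intro h1
    have h2 := relIndex_eq_one.1 h1
    exact hy'a (mem_Cn.1 (h2 (mem_Cn.2 hy'v)))
  have hna : n ∣ cs (v * a) := hcsa ▸ cs_dvd_of_Cn_le (by rw [hC]; exact inf_le_right)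
  have hnpos : 0 < n := by have := h.hn; omega
  have hmpos : 0 < m := by have := h.hm; omega
  have hdm : d = m := by
    rcases cs_of_n_dvd h hna with h1 | h1 <;> rcases hcsv with h2 | h2 <;> rw [h1, h2] at hrel
    · exact absurd (Nat.eq_of_mul_eq_mul_right hnpos (by rw [hrel, one_mul])) hd1
    · exfalso
      have h3 : n * (d * m) = n * 1 := by
        calc n * (d * m) = d * (n * m) := by ring
          _ = n * 1 := by rw [hrel, mul_one]
      have h4 := Nat.eq_of_mul_eq_mul_left hnpos h3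
      have h5 := Nat.eq_one_of_mul_eq_one_left h4
      exact ne_one_m h h5
    · exact Nat.eq_of_mul_eq_mul_right hnpos (by rw [hrel, mul_comm])
    · exact absurd (Nat.eq_of_mul_eq_mul_right (Nat.mul_pos hnpos hmpos) (by rw [hrel, one_mul])) hd1
  -- the contradiction
  let E := Cn v
  let H : Subgroup E := (Cn a).subgroupOf E
  have hH : ¬ s ∣ H.index := by
    have : H.index = m := by
      show (Cn a).relIndex (Cn v) = m
      rw [← hd, hdm]
    rw [this]; exact hsm
  have hu : ((⟨y', mem_Cn.2 hy'v⟩ : E)) ^ (s ^ j) = 1 := by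
    apply Subtype.ext
    show y' ^ (s ^ j) = 1
    rw [hy', conj_pow, hy]
    group
  obtain ⟨e, he⟩ := exists_conj_mem_of_not_dvd H hH hu
  have he' : (e : G)⁻¹ * y' * e ∈ Cn a := by
    have := mem_subgroupOf.1 he
    simpa using this
  exact hY _ (by rw [cs_conj']; exact hcsy') (mem_Cn.1 he')

end Core

/-- The final step: a normal abelian Sylow subgroup whose non-central elements have class size `m` and
do not commute with `a`. -/
theorem step8 {n m : ℕ} (h : Hyp n m G) {a y : G} {s : ℕ} [Fact s.Prime] (hsn : s ∣ n) (hsm : ¬ s ∣ m)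
    (hcsa : cs a = n) (hcsy : cs y = m) (hyP : y ∈ pCore s G)
    (hall : ∀ (u : G) (k : ℕ), u ^ (s ^ k) = 1 → u ∈ pCore s G)
    (hPab : ∀ u ∈ pCore s G, ∀ u' ∈ pCore s G, Commute u u')
    (hP : ∀ v ∈ pCore s G, v ∉ center G → ∀ g ∈ Cn v, ∀ u ∈ pCore s G, Commute g u)
    (hay : ¬ Commute y a) : False := by
  classical
  let P : Subgroup G := pCore s G
  have hPn : P.Normal := inferInstance
  have hPp : IsPGroup s P := isPGroup_pCore (G := G) s
  let W : Subgroup G := centralizer (P : Set G)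
  haveI hWn : W.Normal := Subgroup.normal_centralizer
  have hmemW : ∀ {x : G}, x ∈ W ↔ ∀ u ∈ P, Commute x u := by
    intro x
    rw [mem_centralizer_iff]
    constructor
    · intro hx u hu
      exact (hx u hu).symm
    · intro hx u hu
      exact (hx u hu).symm
  have hyz : y ∉ center G := by
    intro hz
    have := cs_eq_one_iff.2 hz
    rw [hcsy] at this
    exact ne_one_m h this
  have hCW : ∀ v ∈ P, v ∉ center G → Cn v = W := by
    intro v hv hvz
    apply le_antisymm
    · intro g hg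
      exact hmemW.2 (hP v hv hvz g hg)
    · intro g hg
      exact mem_Cn.2 (hmemW.1 hg v hv)
  have hCy := hCW y hyP hyz
  have hWidx : W.index = m := by rw [← hCy]; exact hcsy
  have hcenW : center G ≤ W := fun x hx => hmemW.2 (fun u _ => (mem_center_iff.1 hx u).symm)
  have hsP : ¬ s ∣ P.index := by
    let S : Sylow s G := default
    intro hd
    have hle : (S : Subgroup G) ≤ P := by
      intro x hx
      obtain ⟨k, hk⟩ := exists_pow_of_isPGroup S.2 hx
      exact hall x k hk
    exact S.not_dvd_index (hd.trans (index_dvd_of_le hle))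
  have hmpos : 0 < m := by have := h.hm; omega
  have hnpos : 0 < n := by have := h.hn; omega
  -- `s`-regular elements of `W` are central in `W`
  have hreg : ∀ v ∈ W, (orderOf v).Coprime s → ∀ g ∈ W, Commute g v := by
    intro v hv hvs g hg
    have hvy : Commute v y := hmemW.1 hv y hyP
    obtain ⟨k, hk⟩ := exists_pow_of_isPGroup hPp hyP
    have hco : (orderOf v).Coprime (orderOf y) :=
      Nat.Coprime.coprime_dvd_right (orderOf_dvd_of_pow_eq_one hk) (hvs.pow_right k)
    have hC : Cn (v * y) = Cn v ⊓ Cn y := Cn_mul hvy hco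
    obtain ⟨d, hd⟩ : ∃ d, d = (Cn v).relIndex W := ⟨_, rfl⟩
    have hrel : d * m = cs (v * y) := by
      have h1 := relIndex_mul_index (inf_le_right : Cn v ⊓ Cn y ≤ Cn y)
      rw [inf_relIndex_right, ← hC, show (Cn y).index = m from hcsy, hCy, ← hd] at h1
      exact h1
    have hdv : m ∣ cs (v * y) := hrel ▸ Dvd.intro_left _ rfl
    have hd1 : d = 1 := by
      rcases cs_of_m_dvd h hdv with h1 | h1
      · rw [h1] at hrel
        exact Nat.eq_of_mul_eq_mul_right hmpos (by rw [hrel, one_mul])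
      · exfalso
        rw [h1] at hrel
        have hdn : d = n := Nat.eq_of_mul_eq_mul_right hmpos hrel
        -- `P` lies in `C(v) ⊓ C(y)`
        have hle : P ≤ Cn (v * y) := by
          intro u hu
          rw [hC]
          exact ⟨mem_Cn.2 (hmemW.1 hv u hu).symm, mem_Cn.2 (hPab u hu y hyP)⟩
        have h2 : cs (v * y) ∣ P.index := index_dvd_of_le hle
        rw [h1] at h2
        exact hsP ((hsn.trans (Dvd.intro _ rfl)).trans h2)
    rw [hd] at hd1
    have h3 := relIndex_eq_one.1 hd1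
    exact mem_Cn.1 (h3 hg)
  -- `W` is abelian
  have hWab : ∀ g ∈ W, ∀ g' ∈ W, Commute g g' := by
    intro g hg g' hg'
    obtain ⟨g₁, g₂, hgg, -, ⟨k, hk⟩, hg₂, hg₁z, hg₂z⟩ := Cfsg.Agent.Lib.PResid.exists_decomp (p := s) g'
    have hg₁W : g₁ ∈ W := (zpowers_le.2 hg') hg₁z
    have hg₂W : g₂ ∈ W := (zpowers_le.2 hg') hg₂z
    rw [hgg]
    exact (hmemW.1 hg _ (hall g₁ k hk)).mul_right (hreg g₂ hg₂W hg₂ g hg)
  -- noncentral elements of `W`
  have hWC : ∀ x ∈ W, x ∉ center G → Cn x = W := by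
    intro x hx hxz
    have hle : W ≤ Cn x := fun g hg => mem_Cn.2 (hWab g hg x hx)
    have h1 : cs x ∣ m := by
      rw [← hWidx]
      exact index_dvd_of_le hle
    have h2 := cs_of_dvd_m_noncentral h h1 hxz
    exact (eq_of_le_of_index_eq hle (hWidx.trans h2.symm)).symm
  have hinf : ∀ g, g ∉ W → (Cn g).relIndex W = (center G).relIndex W := by
    intro g hg
    have h1 : Cn g ⊓ W = center G := by
      apply le_antisymm
      · rintro x ⟨hx1, hx2⟩
        by_contra hxz
        apply hg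
        rw [← hWC x hx2 hxz]
        exact mem_Cn.2 (mem_Cn.1 hx1).symm
      · intro x hx
        exact ⟨mem_Cn.2 (mem_center_iff.1 hx g).symm, hcenW hx⟩
    rw [← inf_relIndex_right, h1]
  have haW : a ∉ W := by
    intro ha
    exact hay (hmemW.1 ha y hyP).symm
  -- the index
  have hN : (center G).relIndex W = n := by
    have h1 := index_eq_relIndex_mul (Cn a) W
    rw [show (Cn a).index = n from hcsa, hinf a haW] at h1
    have h2 : (Cn a ⊔ W).index ∣ m := by
      rw [← hWidx]
      exact index_dvd_of_le le_sup_right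
    have h3 : (Cn a ⊔ W).index ∣ n := h1 ▸ Dvd.intro_left _ rfl
    have h4 : (Cn a ⊔ W).index = 1 := Nat.eq_one_of_dvd_coprimes h.cop h3 h2
    rw [h4, mul_one] at h1
    exact h1.symm
  obtain ⟨g, hg⟩ := h.exnm
  by_cases hgW : g ∈ W
  · have hle : W ≤ Cn g := fun x hx => mem_Cn.2 (hWab x hx g hgW)
    have h1 : cs g ∣ m := by
      rw [← hWidx]
      exact index_dvd_of_le hle
    rw [hg] at h1
    have h2 : n ∣ m := (Dvd.intro _ rfl).trans h1
    exact not_m_dvd_n h.symm h2
  · have h1 := index_eq_relIndex_mul (Cn g) W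
    rw [show (Cn g).index = n * m from hg, hinf g hgW, hN] at h1
    have h2 : (Cn g ⊔ W).index = m := (Nat.eq_of_mul_eq_mul_left hnpos h1).symm
    have h3 : W = Cn g ⊔ W :=
      eq_of_le_of_index_eq le_sup_right (by rw [hWidx, h2])
    apply hgW
    rw [h3]
    exact mem_sup_left (mem_Cn_self g)

/-- Primary elements of class sizes `n`, `m` with `cs (a * y) = n` commute. -/
theorem core {n m : ℕ} (h : Hyp n m G) {r s : ℕ} [Fact r.Prime] [Fact s.Prime] (hrs : r ≠ s) {a y : G}
    {i j : ℕ} (ha : a ^ (r ^ i) = 1) (hy : y ^ (s ^ j) = 1) (hcsa : cs a = n) (hcsy : cs y = m)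
    (hay : cs (a * y) = n) : False := by
  classical
  obtain ⟨hmn, hsn, hK, L, hLn, hLbot, hLp, hLa, hLm⟩ := core1 h hrs ha hy hcsa hcsy hay
  have hnpos : 0 < n := by have := h.hn; omega
  have hsm : ¬ s ∣ m := by
    intro hd
    have h1 := Nat.dvd_gcd hsn hd
    rw [h.cop] at h1
    exact (Fact.out : s.Prime).one_lt.ne' (Nat.dvd_one.1 h1)
  have hY : ∀ u : G, cs u = m → ¬ Commute u a := fun u hu => step3 h hmn hcsa hLn hLbot hLa hLm hu
  have hcen := fun (v : G) (k : ℕ) (hv : v ^ (s ^ k) = 1) (hva : Commute v a) =>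
    step4 h hrs hsm ha hcsa hY hy hcsy hv hva
  obtain ⟨T₀, hT₀p, hT₀c, hT₀⟩ := exists_T0 (s := s) a hcen
  have hT₀n : T₀.Normal := by
    constructor
    intro x hx g
    have : g * x * g⁻¹ = x := by rw [mem_center_iff.1 (hT₀c hx) g]; group
    rwa [this]
  -- noncentral `s`-elements
  have hm' : ∀ (u : G) (k : ℕ), u ^ (s ^ k) = 1 → u ∉ center G → cs u = m := by
    intro u k hu huz
    by_contra hne
    have hcsu : cs u = n ∨ cs u = n * m := by
      rcases h.vals u with h1 | h1 | h1 | h1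
      · exact absurd (cs_eq_one_iff.1 h1) huz
      · exact Or.inl h1
      · exact absurd h1 hne
      · exact Or.inr h1
    let T : Subgroup G := zpowers u ⊔ T₀
    have hTp : IsPGroup s T := IsPGroup.to_sup_of_normal_right (isPGroup_zpowers hu) hT₀p
    have hTC : T ≤ Cn u := by
      apply sup_le
      · exact zpowers_le.2 (mem_Cn_self u)
      · intro x hx
        exact mem_Cn.2 (mem_center_iff.1 (hT₀c hx) u).symm
    have hT := hT₀ T hTp ((card_dvd_of_le hTC).trans (card_Cn_dvd hcsa hnpos hcsu))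
    have heq : T₀ = T := eq_of_le_of_card_ge le_sup_right hT
    have huT : u ∈ T := mem_sup_left (mem_zpowers u)
    rw [← heq] at huT
    exact huz (hT₀c huT)
  -- all `s`-elements lie in `O_s(G)`
  have hall : ∀ (u : G) (k : ℕ), u ^ (s ^ k) = 1 → u ∈ pCore s G := by
    intro u k hu
    by_cases huz : u ∈ center G
    · apply mem_pCore_of_comm hu
      intro g g'
      have e1 : g * u * g⁻¹ = u := by rw [mem_center_iff.1 huz g]; group
      have e2 : g' * u * g'⁻¹ = u := by rw [mem_center_iff.1 huz g']; group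
      rw [e1, e2]
    · have hcsu := hm' u k hu huz
      have hnc : ¬ Commute a u := fun hc => hY u hcsu hc.symm
      rcases cs_mul_of_not_comm h hcsa hcsu hnc with h1 | h1
      · obtain ⟨-, -, hK', -⟩ := core1 h hrs ha hu hcsa hcsu h1
        exact mem_pCore_of_comm hu hK'
      · exfalso
        have h2 : cs (u * a) = m := by
          have e : u * a = u * (a * u) * u⁻¹ := by group
          rw [e, cs_conj, h1]
        obtain ⟨h3, -⟩ := core1 h.symm (Ne.symm hrs) hu ha hcsu hcsa h2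
        omega
  have hSle : ∀ (u : G), cs u = m → pCore s G ≤ Cn u := by
    intro u hu
    obtain ⟨P₁, hP₁⟩ := Cfsg.Agent.Lib.QBaerA.exists_sylow_le (q := s) (Cn u)
      (by rw [show (Cn u).index = m from hu]; exact hsm)
    exact (pCore_le_sylow s P₁).trans hP₁
  have hPab : ∀ u ∈ pCore s G, ∀ u' ∈ pCore s G, Commute u u' := by
    intro u hu u' hu'
    by_cases huz : u ∈ center G
    · exact (mem_center_iff.1 huz u').symm
    · obtain ⟨k, hk⟩ := exists_pow_of_isPGroup (isPGroup_pCore (G := G) s) hu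
      have := hSle u (hm' u k hk huz) hu'
      exact (mem_Cn.1 this).symm
  have hT₀P : T₀ ≤ pCore s G := by
    intro x hx
    obtain ⟨k, hk⟩ := exists_pow_of_isPGroup hT₀p hx
    exact hall x k hk
  have hP : ∀ v ∈ pCore s G, v ∉ center G → ∀ g ∈ Cn v, ∀ u ∈ pCore s G, Commute g u := by
    intro v hv hvz g hg u hu
    by_contra hnc
    have hcsg : cs g = n ∨ cs g = n * m := by
      rcases h.vals g with h1 | h1 | h1 | h1
      · exact absurd (mem_center_iff.1 (cs_eq_one_iff.1 h1) u).symm hnc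
      · exact Or.inl h1
      · exact absurd (mem_Cn.1 (hSle g h1 hu)).symm hnc
      · exact Or.inr h1
    let T : Subgroup G := pCore s G ⊓ Cn g
    have hTp : IsPGroup s T := (isPGroup_pCore (G := G) s).to_le inf_le_left
    have hle := hT₀ T hTp ((card_dvd_of_le inf_le_right).trans (card_Cn_dvd hcsa hnpos hcsg))
    have hT₀T : T₀ ≤ T := le_inf hT₀P (fun x hx => mem_Cn.2 (mem_center_iff.1 (hT₀c hx) g).symm)
    have heq : T₀ = T := eq_of_le_of_card_ge hT₀T hle
    have hvT : v ∈ T := ⟨hv, mem_Cn.2 (mem_Cn.1 hg).symm⟩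
    rw [← heq] at hvT
    exact hvz (hT₀c hvT)
  exact step8 h hsn hsm hcsa hcsy (hall y j hy) hall hPab hP (hY y hcsy)

/-- **Part 1**: elements of class sizes `n` and `m` commute. -/
theorem comm_XY {n m : ℕ} (h : Hyp n m G) {x y : G} (hx : cs x = n) (hy : cs y = m) : Commute x y := by
  by_contra hnc
  have hxC : x ∉ Cn y := fun hm => hnc (mem_Cn.1 hm)
  obtain ⟨e, r, i, hr, hi, hnot⟩ := exists_primary_pow_not_mem (Cn y) x hxC
  have hnz : x ^ e ∉ center G := fun hz => hnot (mem_Cn.2 (mem_center_iff.1 hz y).symm)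
  have hcsa : cs (x ^ e) = n := cs_of_dvd_n_noncentral h (hx ▸ cs_pow_dvd x e) hnz
  have hyC : y ∉ Cn (x ^ e) := fun hm => hnot (mem_Cn.2 (mem_Cn.1 hm).symm)
  obtain ⟨f, s, j, hs, hj, hnot'⟩ := exists_primary_pow_not_mem (Cn (x ^ e)) y hyC
  have hnz' : y ^ f ∉ center G := fun hz => hnot' (mem_Cn.2 (mem_center_iff.1 hz _).symm)
  have hcsy : cs (y ^ f) = m := cs_of_dvd_m_noncentral h (hy ▸ cs_pow_dvd y f) hnz'
  haveI : Fact r.Prime := ⟨hr⟩
  haveI : Fact s.Prime := ⟨hs⟩
  have hnc' : ¬ Commute (x ^ e) (y ^ f) := fun hc => hnot' (mem_Cn.2 hc.symm)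
  have hrs : r ≠ s := by
    rintro rfl
    -- `r` divides neither `n` nor `m` simultaneously
    by_cases hn : r ∣ n
    · have hm : ¬ r ∣ m := by
        intro hd
        have h1 := Nat.dvd_gcd hn hd
        rw [h.cop] at h1
        exact hr.one_lt.ne' (Nat.dvd_one.1 h1)
      -- `y ^ f` is conjugate into a Sylow subgroup of `C(x ^ e)`... use `C(y ^ f)`
      obtain ⟨g, hg⟩ := exists_conj_mem_of_not_dvd (Cn (y ^ f))
        (by rw [show (Cn (y ^ f)).index = m from hcsy]; exact hm) hi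
      have hc : Commute (g⁻¹ * x ^ e * g) (y ^ f) := mem_Cn.1 hg
      have e1 : g * (g⁻¹ * x ^ e * g) * g⁻¹ = x ^ e := by group
      have h3 : Commute (y ^ f) (x ^ e) := by
        have := comm_conj (x := y ^ f) (y := g⁻¹ * x ^ e * g) (by
          rw [cs_conj', hcsy, hcsa]; exact h.cop.symm) hc.symm g
        rwa [e1] at this
      exact hnc' h3.symm
    · obtain ⟨g, hg⟩ := exists_conj_mem_of_not_dvd (Cn (x ^ e))
        (by rw [show (Cn (x ^ e)).index = n from hcsa]; exact hn) hj
      have hc : Commute (g⁻¹ * y ^ f * g) (x ^ e) := mem_Cn.1 hg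
      have e1 : g * (g⁻¹ * y ^ f * g) * g⁻¹ = y ^ f := by group
      have h3 : Commute (x ^ e) (y ^ f) := by
        have := comm_conj (x := x ^ e) (y := g⁻¹ * y ^ f * g) (by
          rw [cs_conj', hcsa, hcsy]; exact h.cop) hc.symm g
        rwa [e1] at this
      exact hnc' h3
  rcases cs_mul_of_not_comm h hcsa hcsy hnc' with h1 | h1
  · exact core h hrs hi hj hcsa hcsy h1
  · have h2 : cs (y ^ f * x ^ e) = m := by
      have e2 : y ^ f * x ^ e = y ^ f * (x ^ e * y ^ f) * (y ^ f)⁻¹ := by group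
      rw [e2, cs_conj, h1]
    exact core h.symm (Ne.symm hrs) hj hi hcsy hcsa h2

end Cfsg.Agent.Lib.FourB
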