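import Mathlib

/-!
# Freeness for Frobenius complements

If a solvable group `E` is acted on fixed point freely by `H` and `|E|` is invertible in the field `k`,
then every `k[E H]`-module without nonzero `E`-fixed vectors is free as a `k[H]`-module.

The argument: go down the derived series of `E`; on the abelian layers the operators coming from `E`
generate a commutative reduced algebra `Z` on which `H` acts freely on the maximal ideals with trivial
inertia.  The normal basis theorem, applied residue field by residue field, gives `a, b ∈ Z` with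
`∑ s, s • (a * t • b) = δ_{t,1}`, and `a (∑ h, h) b` is an idempotent with orthogonal `H`-conjugates
summing to one.
-/

set_option autoImplicit false

namespace Cfsg.Agent.Lib.FreeFrob

theorem exists_dual_field {K S : Type*} [Field K] [Group S] [Fintype S] [DecidableEq S]
    [MulSemiringAction S K] [FaithfulSMul S K] :
    ∃ a b : K, ∀ t : S, ∑ s : S, s • (a * t • b) = if t = 1 then 1 else 0 := by
  classical
  let K₀ := FixedPoints.subfield S K
  haveI : IsGalois K₀ K := inferInstance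
  haveI : FiniteDimensional K₀ K := inferInstance
  let B := IsGalois.normalBasis K₀ K
  let e : S ≃* Gal(K/K₀) := FixedPoints.toAlgAutMulEquiv S K
  have he : ∀ (s : S) (x : K), e s x = s • x := fun s x => rfl
  have hnd := traceForm_nondegenerate K₀ K
  let D := (Algebra.traceForm K₀ K).dualBasis hnd B
  let θ : K := B 1
  let c : K := D 1
  have htr : ∀ x : K, ∑ s : S, s • x = algebraMap K₀ K (Algebra.trace K₀ K x) := by
    intro x
    rw [trace_eq_sum_automorphisms]
    exact Fintype.sum_equiv e.toEquiv _ _ (fun s => rfl)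
  have hdual : ∀ s : S, ∑ r : S, r • (c * s • θ) = if s = 1 then 1 else 0 := by
    intro s
    rw [htr]
    have h1 : s • θ = B (e s) := by
      rw [IsGalois.normalBasis_apply (e s)]; rfl
    have h2 := LinearMap.BilinForm.apply_dualBasis_left hnd B 1 (e s)
    have h3 : Algebra.trace K₀ K (c * s • θ) = if e s = 1 then 1 else 0 := by
      rw [h1]; exact h2
    rw [h3]
    have h4 : (e s = 1) ↔ s = 1 := by simp
    simp only [h4]
    split_ifs <;> simp
  refine ⟨θ, c, fun t => ?_⟩
  have h5 : ∀ s : S, s • (θ * t • c) = (s * t) • (c * t⁻¹ • θ) := by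
    intro s
    rw [mul_smul, smul_mul' t c, smul_inv_smul, smul_mul', smul_mul', mul_comm]
  simp_rw [h5]
  rw [Fintype.sum_equiv (Equiv.mulRight t) (fun s => (s * t) • (c * t⁻¹ • θ)) (fun r => r • (c * t⁻¹ • θ)) (fun _ => rfl)]
  rw [hdual]
  simp


section Ring

variable {Z H : Type*} [CommRing Z] [Group H] [MulSemiringAction H Z]

/-- The stabilizer of an ideal, in the form we use. -/
def stabI (m : Ideal Z) : Subgroup H where
  carrier := {h | ∀ z, h • z ∈ m ↔ z ∈ m}
  one_mem' := fun z => by simp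
  mul_mem' := fun {a b} ha hb z => by
    rw [mul_smul, ha, hb]
  inv_mem' := fun {a} ha z => by
    rw [← ha (a⁻¹ • z), smul_inv_smul]

theorem mem_stabI {m : Ideal Z} {h : H} : h ∈ stabI m ↔ ∀ z, h • z ∈ m ↔ z ∈ m := Iff.rfl

/-- The action of the stabilizer on the residue ring. -/
noncomputable def stabAct (m : Ideal Z) [m.IsTwoSided] : MulSemiringAction (stabI (H := H) m) (Z ⧸ m) where
  smul s x := Ideal.Quotient.lift m ((Ideal.Quotient.mk m).comp (MulSemiringAction.toRingHom H Z s))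
    (fun z hz => by
      rw [RingHom.comp_apply, Ideal.Quotient.eq_zero_iff_mem]
      exact (s.2 z).2 hz) x
  one_smul x := by
    obtain ⟨z, rfl⟩ := Ideal.Quotient.mk_surjective x
    show (Ideal.Quotient.mk m) ((1 : H) • z) = _
    rw [one_smul]
  mul_smul a b x := by
    obtain ⟨z, rfl⟩ := Ideal.Quotient.mk_surjective x
    show (Ideal.Quotient.mk m) (((a : H) * (b : H)) • z) = (Ideal.Quotient.mk m) ((a : H) • (b : H) • z)
    rw [mul_smul]
  smul_zero a := by
    show Ideal.Quotient.lift m _ _ 0 = 0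
    rw [map_zero]
  smul_add a x y := by
    show Ideal.Quotient.lift m _ _ (x + y) = Ideal.Quotient.lift m _ _ x + Ideal.Quotient.lift m _ _ y
    rw [map_add]
  smul_one a := by
    show Ideal.Quotient.lift m _ _ 1 = 1
    rw [map_one]
  smul_mul a x y := by
    show Ideal.Quotient.lift m _ _ (x * y) = Ideal.Quotient.lift m _ _ x * Ideal.Quotient.lift m _ _ y
    rw [map_mul]

variable [Finite H] [DecidableEq H]

theorem exists_dual_mod (m : Ideal Z) (hm : m.IsMaximal)
    (inert : ∀ s : H, (∀ z : Z, s • z - z ∈ m) → s = 1) [Fintype (stabI (H := H) m)] :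
    ∃ a b : Z, ∀ t ∈ stabI (H := H) m,
      (∑ s : stabI (H := H) m, (s : H) • (a * t • b)) - (if t = 1 then 1 else 0) ∈ m := by
  classical
  letI : Field (Z ⧸ m) := Ideal.Quotient.field m
  letI act : MulSemiringAction (stabI (H := H) m) (Z ⧸ m) := stabAct m
  have hact : ∀ (s : stabI (H := H) m) (z : Z),
      s • (Ideal.Quotient.mk m z) = Ideal.Quotient.mk m ((s : H) • z) := fun _ _ => rfl
  haveI : FaithfulSMul (stabI (H := H) m) (Z ⧸ m) := by
    constructor
    intro s₁ s₂ h
    have h1 : (s₂⁻¹ * s₁ : stabI (H := H) m) = 1 := by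
      apply Subtype.ext
      apply inert
      intro z
      have h2 := h (Ideal.Quotient.mk m z)
      rw [hact, hact] at h2
      have h3 := (Ideal.Quotient.eq (I := m)).1 h2
      have h4 := (s₂⁻¹ : stabI (H := H) m).2 ((s₁ : H) • z - (s₂ : H) • z)
      have h5 := h4.2 h3
      rw [smul_sub] at h5
      have h6 : ((s₂⁻¹ : stabI (H := H) m) : H) • (s₂ : H) • z = z := by
        simp
      rw [h6] at h5
      have h7 : ((s₂⁻¹ * s₁ : stabI (H := H) m) : H) • z = ((s₂⁻¹ : stabI (H := H) m) : H) • (s₁ : H) • z := by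
        simp [mul_smul]
      rw [h7]
      exact h5
    have h8 := eq_of_inv_mul_eq_one h1
    exact h8.symm
  obtain ⟨a', b', hab⟩ := exists_dual_field (K := Z ⧸ m) (S := stabI (H := H) m)
  obtain ⟨a, rfl⟩ := Ideal.Quotient.mk_surjective a'
  obtain ⟨b, rfl⟩ := Ideal.Quotient.mk_surjective b'
  refine ⟨a, b, fun t ht => ?_⟩
  have h1 := hab ⟨t, ht⟩
  rw [← Ideal.Quotient.eq_zero_iff_mem, map_sub, map_sum, sub_eq_zero]
  have h2 : ∀ s : stabI (H := H) m, Ideal.Quotient.mk m ((s : H) • (a * t • b)) =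
      s • (Ideal.Quotient.mk m a * (⟨t, ht⟩ : stabI (H := H) m) • Ideal.Quotient.mk m b) := by
    intro s
    rw [hact ⟨t, ht⟩ b, ← map_mul, hact]
  simp_rw [h2]
  rw [h1]
  by_cases ht1 : t = 1
  · subst ht1
    have h9 : (⟨1, ht⟩ : stabI (H := H) m) = 1 := rfl
    simp [h9]
  · have : (⟨t, ht⟩ : stabI (H := H) m) ≠ 1 := fun h => ht1 (congrArg Subtype.val h)
    simp only [this, ht1, if_false, map_zero]

theorem exists_dual_ring [IsReduced Z] [IsArtinianRing Z] [Fintype H]
    (inert : ∀ m : Ideal Z, m.IsMaximal → ∀ s : H, (∀ z : Z, s • z - z ∈ m) → s = 1) :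
    ∃ a b : Z, ∀ t : H, ∑ s : H, s • (a * t • b) = if t = 1 then 1 else 0 := by
  classical
  let tr : H → MaximalSpectrum Z → MaximalSpectrum Z := fun h m =>
    ⟨Ideal.comap (MulSemiringAction.toRingEquiv H Z h) m.asIdeal,
      Ideal.comap_isMaximal_of_equiv _⟩
  have htr : ∀ (h : H) (m : MaximalSpectrum Z) (z : Z), z ∈ (tr h m).asIdeal ↔ h • z ∈ m.asIdeal :=
    fun _ _ _ => Iff.rfl
  have htr1 : ∀ m, tr 1 m = m := by
    intro m
    ext z
    rw [htr, one_smul]
  have htrm : ∀ h k m, tr k (tr h m) = tr (h * k) m := by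
    intro h k m
    ext z
    rw [htr, htr, htr, mul_smul]
  let st : Setoid (MaximalSpectrum Z) :=
    { r := fun m n => ∃ h, n = tr h m
      iseqv :=
        { refl := fun m => ⟨1, (htr1 m).symm⟩
          symm := fun {m n} ⟨h, hn⟩ => ⟨h⁻¹, by rw [hn, htrm, mul_inv_cancel, htr1]⟩
          trans := fun {m n l} ⟨h, hn⟩ ⟨k, hl⟩ => ⟨h * k, by rw [hl, hn, htrm]⟩ } }
  let rep : MaximalSpectrum Z → MaximalSpectrum Z := fun n => (Quotient.mk st n).out
  have hrep : ∀ n, ∃ h, n = tr h (rep n) := fun n => Quotient.exact (Quotient.out_eq (Quotient.mk st n))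
  have hreprep : ∀ m k, rep (tr k (rep m)) = rep m := by
    intro m k
    have : Quotient.mk st (tr k (rep m)) = Quotient.mk st m := by
      apply Quotient.sound
      obtain ⟨h, hh⟩ := hrep m
      refine ⟨k⁻¹ * h, ?_⟩
      rw [htrm, mul_inv_cancel_left]
      exact hh
    show (Quotient.mk st _).out = (Quotient.mk st _).out
    rw [this]
  have huniq : ∀ (m : MaximalSpectrum Z) (s : H), rep m = m → rep (tr s m) = tr s m → tr s m = m := by
    intro m s h1 h2
    have h3 := hreprep m s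
    rw [h1] at h3
    rw [h2] at h3
    exact h3
  letI : ∀ m : MaximalSpectrum Z, Fintype (stabI (H := H) m.asIdeal) := fun _ => Fintype.ofFinite _
  have hF := fun m : MaximalSpectrum Z => exists_dual_mod (H := H) m.asIdeal m.isMaximal (inert m.asIdeal m.isMaximal)
  choose a₀ b₀ hab₀ using hF
  have hcop : Pairwise (Function.onFun IsCoprime (fun m : MaximalSpectrum Z => m.asIdeal)) := by
    intro m n hmn
    have : m.asIdeal ≠ n.asIdeal := fun h => hmn (MaximalSpectrum.ext h)
    exact (Ideal.isCoprime_iff_sup_eq).2 (Ideal.IsMaximal.coprime_of_ne m.isMaximal n.isMaximal this)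
  obtain ⟨a, ha⟩ := Ideal.exists_forall_sub_mem_ideal hcop (fun m => if rep m = m then a₀ m else 0)
  obtain ⟨b, hb⟩ := Ideal.exists_forall_sub_mem_ideal hcop (fun m => if rep m = m then b₀ m else 0)
  have ha1 : ∀ m, rep m = m → a - a₀ m ∈ m.asIdeal := fun m hm => by simpa [hm] using ha m
  have hb1 : ∀ m, rep m = m → b - b₀ m ∈ m.asIdeal := fun m hm => by simpa [hm] using hb m
  have ha0 : ∀ m, rep m ≠ m → a ∈ m.asIdeal := fun m hm => by simpa [hm] using ha m
  have hb0 : ∀ m, rep m ≠ m → b ∈ m.asIdeal := fun m hm => by simpa [hm] using hb m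
  -- outside the stabilizer
  have hout : ∀ m, rep m = m → ∀ s : H, s ∉ stabI (H := H) m.asIdeal → ∀ c : Z,
      (rep (tr s m) ≠ tr s m → c ∈ (tr s m).asIdeal) → s • c ∈ m.asIdeal := by
    intro m hm s hs c hc
    apply (htr s m c).1
    apply hc
    intro h
    have h1 := huniq m s hm h
    apply hs
    intro z
    rw [← htr, h1]
  refine ⟨a, b, fun t => ?_⟩
  set y : Z := (∑ s : H, s • (a * t • b)) - (if t = 1 then 1 else 0) with hy
  have hfix : ∀ h : H, h • y = y := by
    intro h
    rw [hy, smul_sub, Finset.smul_sum]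
    have h1 : h • (if t = 1 then (1 : Z) else 0) = if t = 1 then (1 : Z) else 0 := by
      split_ifs <;> simp
    rw [h1, ← Fintype.sum_equiv (Equiv.mulLeft h) (fun s => h • s • (a * t • b)) (fun s => s • (a * t • b))
      (fun s => (mul_smul h s _).symm)]
  have hymem : ∀ m, rep m = m → y ∈ m.asIdeal := by
    intro m hm
    rw [hy, ← Ideal.Quotient.eq_zero_iff_mem, map_sub, map_sum]
    have hterm : ∀ s : H, s ∉ stabI (H := H) m.asIdeal → Ideal.Quotient.mk m.asIdeal (s • (a * t • b)) = 0 := by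
      intro s hs
      rw [Ideal.Quotient.eq_zero_iff_mem, smul_mul']
      exact Ideal.mul_mem_right _ _ (hout m hm s hs a (ha0 _))
    by_cases ht : t ∈ stabI (H := H) m.asIdeal
    · have h2 := hab₀ m t ht
      rw [← Ideal.Quotient.eq_zero_iff_mem, map_sub, map_sum, sub_eq_zero] at h2
      rw [sub_eq_zero, ← h2]
      have h3 : ∀ s : stabI (H := H) m.asIdeal, Ideal.Quotient.mk m.asIdeal ((s : H) • (a * t • b)) =
          Ideal.Quotient.mk m.asIdeal ((s : H) • (a₀ m * t • b₀ m)) := by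
        intro s
        rw [Ideal.Quotient.eq, ← smul_sub]
        refine (s.2 _).2 ?_
        have h4 : a * t • b - a₀ m * t • b₀ m = (a - a₀ m) * t • b + a₀ m * t • (b - b₀ m) := by
          rw [smul_sub]; ring
        rw [h4]
        refine Ideal.add_mem _ (Ideal.mul_mem_right _ _ (ha1 m hm)) (Ideal.mul_mem_left _ _ ?_)
        exact (ht _).2 (hb1 m hm)
      simp_rw [← h3]
      rw [← Finset.sum_subset (Finset.subset_univ (Finset.univ.filter (· ∈ stabI (H := H) m.asIdeal)))
        (fun s _ hs => hterm s (by simpa using hs))]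
      exact Finset.sum_subtype (p := fun s => s ∈ stabI (H := H) m.asIdeal)
        (Finset.univ.filter (· ∈ stabI (H := H) m.asIdeal)) (fun x => by simp)
        (fun s => Ideal.Quotient.mk m.asIdeal (s • (a * t • b)))
    · have ht1 : t ≠ 1 := by
        rintro rfl
        exact ht (Subgroup.one_mem _)
      rw [if_neg ht1, map_zero, sub_zero]
      apply Finset.sum_eq_zero
      intro s _
      by_cases hs : s ∈ stabI (H := H) m.asIdeal
      · have hst : s * t ∉ stabI (H := H) m.asIdeal := fun h =>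
          ht (by simpa using mul_mem (inv_mem hs) h)
        rw [Ideal.Quotient.eq_zero_iff_mem, smul_mul', ← mul_smul]
        exact Ideal.mul_mem_left _ _ (hout m hm _ hst b (hb0 _))
      · exact hterm s hs
  have hyall : ∀ m : MaximalSpectrum Z, y ∈ m.asIdeal := by
    intro n
    obtain ⟨h, hh⟩ := hrep n
    rw [hh, htr, hfix]
    exact hymem _ (by
      show rep (rep n) = rep n
      have := hreprep n 1
      rwa [htr1] at this)
  have hy0 : y = 0 := by
    have h1 : y ∈ Ideal.jacobson (⊥ : Ideal Z) := by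
      rw [Ideal.jacobson, Ideal.mem_sInf]
      rintro I ⟨_, hI⟩
      exact hyall ⟨I, hI⟩
    rw [IsArtinianRing.jacobson_eq_radical] at h1
    obtain ⟨k, hk⟩ := h1
    have h2 : y ^ k = 0 := by simpa using hk
    exact IsNilpotent.eq_zero ⟨k, h2⟩
  exact sub_eq_zero.1 hy0

end Ring


section Op

variable {k X Z H : Type*} [Field k] [AddCommGroup X] [Module k X] [CommRing Z] [Group H] [Fintype H]
  [DecidableEq H] [MulSemiringAction H Z]

theorem dual_flip (a b : Z)
    (hab : ∀ t : H, ∑ s : H, s • (a * t • b) = if t = 1 then 1 else 0) (t : H) :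
    ∑ s : H, s • a * (t * s) • b = if t = 1 then 1 else 0 := by
  let A : Matrix H H Z := fun x r => (x * r) • a
  let B : Matrix H H Z := fun x s => (x * s) • b
  have h1 : A.transpose * B = 1 := by
    ext r s
    rw [Matrix.mul_apply, Matrix.one_apply]
    have h2 : ∀ x : H, A.transpose r x * B x s = (x * r) • (a * (r⁻¹ * s) • b) := by
      intro x
      show (x * r) • a * (x * s) • b = _
      rw [smul_mul', ← mul_smul (x * r) (r⁻¹ * s) b]
      simp [mul_assoc]
    simp_rw [h2]
    rw [Fintype.sum_equiv (Equiv.mulRight r) (fun x => (x * r) • (a * (r⁻¹ * s) • b))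
      (fun x => x • (a * (r⁻¹ * s) • b)) (fun _ => rfl), hab]
    simp [inv_mul_eq_one]
  have h3 : B * A.transpose = 1 := mul_eq_one_comm.1 h1
  have h4 := congrFun (congrFun h3 t) 1
  rw [Matrix.mul_apply, Matrix.one_apply] at h4
  have h5 : ∀ s : H, B t s * A.transpose s 1 = s • a * (t * s) • b := by
    intro s
    show (t * s) • b * (1 * s) • a = _
    rw [one_mul, mul_comm]
  simp_rw [h5] at h4
  exact h4

theorem internal_of_dual (τ : Representation k H X) (θ : Z →+* Module.End k X)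
    (hcomp : ∀ (h : H) (z : Z), τ h * θ z = θ (h • z) * τ h)
    (a b : Z) (hab : ∀ t : H, ∑ s : H, s • (a * t • b) = if t = 1 then 1 else 0) :
    ∃ W : Submodule k X, iSupIndep (fun h : H => W.map (τ h)) ∧ (⨆ h : H, W.map (τ h)) = ⊤ := by
  classical
  let T : Module.End k X := ∑ h : H, τ h
  have hTl : ∀ h : H, τ h * T = T := by
    intro h
    simp only [T, Finset.mul_sum, ← map_mul]
    exact Fintype.sum_equiv (Equiv.mulLeft h) _ _ (fun _ => rfl)
  have hTr : ∀ h : H, T * τ h = T := by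
    intro h
    simp only [T, Finset.sum_mul, ← map_mul]
    exact Fintype.sum_equiv (Equiv.mulRight h) _ _ (fun _ => rfl)
  have hTT : ∀ x : Z, T * θ x * T = θ (∑ s : H, s • x) * T := by
    intro x
    rw [map_sum, Finset.sum_mul]
    simp only [T, Finset.sum_mul]
    apply Finset.sum_congr rfl
    intro s _
    rw [hcomp, mul_assoc]
    congr 1
    exact hTl s
  let ε : H → Module.End k X := fun s => θ (s • a) * T * θ (s • b)
  have hTrinv : ∀ (x : Z) (r : H), ∑ s : H, s • r • x = ∑ s : H, s • x := by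
    intro x r
    simp_rw [← mul_smul]
    exact Fintype.sum_equiv (Equiv.mulRight r) _ _ (fun _ => rfl)
  have horth : ∀ s r : H, ε s * ε r = if s = r then ε s else 0 := by
    intro s r
    have h1 : ε s * ε r = θ (s • a) * (T * θ (s • b * r • a) * T) * θ (r • b) := by
      simp only [ε, map_mul, mul_assoc]
    have h2 : s • b * r • a = r • (a * (r⁻¹ * s) • b) := by
      rw [smul_mul', mul_comm, smul_smul, mul_inv_cancel_left]
    have h3 : ∑ x : H, x • (s • b * r • a) = if r⁻¹ * s = 1 then 1 else 0 := by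
      rw [h2, hTrinv, hab]
    rw [h1, hTT, h3]
    by_cases hsr : s = r
    · subst hsr
      simp [ε, mul_assoc]
    · have h4 : r⁻¹ * s ≠ 1 := fun h => hsr (inv_mul_eq_one.1 h).symm
      simp [hsr, h4]
  have hsum : ∑ s : H, ε s = 1 := by
    have h1 : ∀ s : H, ε s = ∑ t : H, θ (s • a * (t * s) • b) * τ t := by
      intro s
      simp only [ε, T, Finset.mul_sum, Finset.sum_mul]
      apply Finset.sum_congr rfl
      intro t _
      rw [mul_assoc, hcomp, ← mul_assoc, ← map_mul, mul_smul]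
    simp_rw [h1]
    rw [Finset.sum_comm]
    simp_rw [← Finset.sum_mul, ← map_sum, dual_flip a b hab]
    rw [Finset.sum_eq_single (1 : H)]
    · simp
    · intro t _ ht
      simp [ht]
    · simp
  have hconj : ∀ s : H, τ s * ε 1 = ε s * τ s := by
    intro s
    have h1 : θ b * τ s⁻¹ = τ s⁻¹ * θ (s • b) := by
      rw [hcomp, smul_smul, inv_mul_cancel, one_smul]
    have h2 : τ s * τ s⁻¹ = 1 := by rw [← map_mul, mul_inv_cancel, map_one]
    have h3 : τ s⁻¹ * τ s = 1 := by rw [← map_mul, inv_mul_cancel, map_one]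
    calc τ s * ε 1 = τ s * θ a * T * θ b * (τ s⁻¹ * τ s) := by
          simp [ε, mul_assoc, h3]
      _ = θ (s • a) * (τ s * T) * (θ b * τ s⁻¹) * τ s := by
          rw [hcomp]; simp only [mul_assoc]
      _ = θ (s • a) * T * τ s⁻¹ * θ (s • b) * τ s := by
          rw [hTl, h1]; simp only [mul_assoc]
      _ = ε s * τ s := by
          rw [mul_assoc (θ (s • a)) T (τ s⁻¹), hTr]
  have hmap : ∀ s : H, (LinearMap.range (ε 1)).map (τ s) = LinearMap.range (ε s) := by
    intro s
    apply le_antisymm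
    · rintro _ ⟨_, ⟨v, rfl⟩, rfl⟩
      exact ⟨τ s v, (congrArg (fun f : Module.End k X => f v) (hconj s)).symm⟩
    · rintro _ ⟨v, rfl⟩
      have h2 : τ s * τ s⁻¹ = 1 := by rw [← map_mul, mul_inv_cancel, map_one]
      refine ⟨ε 1 (τ s⁻¹ v), ⟨_, rfl⟩, ?_⟩
      have h3 := congrArg (fun f : Module.End k X => f (τ s⁻¹ v)) (hconj s)
      refine h3.trans ?_
      show ε s (τ s (τ s⁻¹ v)) = ε s v
      rw [show τ s (τ s⁻¹ v) = v from congrArg (fun f : Module.End k X => f v) h2]
  refine ⟨LinearMap.range (ε 1), ?_, ?_⟩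
  · simp_rw [hmap]
    rw [iSupIndep_def]
    intro s
    rw [Submodule.disjoint_def]
    rintro x ⟨v, rfl⟩ hx
    have h1 : ∀ y ∈ ⨆ r, ⨆ (_ : r ≠ s), LinearMap.range (ε r), ε s y = 0 := by
      intro y hy
      have h2 : (⨆ r, ⨆ (_ : r ≠ s), LinearMap.range (ε r)) ≤ LinearMap.ker (ε s) := by
        refine iSup₂_le ?_
        rintro r hr _ ⟨w, rfl⟩
        have h3 := horth s r
        rw [if_neg (Ne.symm hr)] at h3
        exact congrArg (fun f : Module.End k X => f w) h3
      exact h2 hy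
    have h4 := h1 _ hx
    have h5 := horth s s
    rw [if_pos rfl] at h5
    have h6 := congrArg (fun f : Module.End k X => f v) h5
    exact h6.symm.trans h4
  · simp_rw [hmap]
    rw [eq_top_iff]
    intro v _
    have h1 : v = ∑ s : H, ε s v := by
      have := congrArg (fun f : Module.End k X => f v) hsum
      simpa using this.symm
    rw [h1]
    exact Submodule.sum_mem _ (fun s _ => Submodule.mem_iSup_of_mem s ⟨v, rfl⟩)

end Op


section Ab

variable {k X H Q : Type*} [Field k] [AddCommGroup X] [Module k X] [FiniteDimensional k X]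
  [Group H] [Fintype H] [DecidableEq H] [Group Q] [Fintype Q]

theorem reduced_aux (σ : Representation k Q X)
    (hcard : (Fintype.card Q : k) ≠ 0) (z : Module.End k X)
    (hz : z ∈ Algebra.adjoin k (Set.range σ)) (hzc : ∀ x : Q, z * σ x = σ x * z) (hzz : z * z = 0) : z = 0 := by
  classical
  obtain ⟨g, hg⟩ := LinearMap.exists_leftInverse_of_injective (LinearMap.ker z).subtype
    (by simp)
  let P₀ : Module.End k X := (LinearMap.ker z).subtype ∘ₗ g
  have hP₀ : ∀ w, z w = 0 → P₀ w = w := by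
    intro w hw
    have := LinearMap.congr_fun hg ⟨w, hw⟩
    show ((g w : LinearMap.ker z) : X) = w
    have h2 : g w = ⟨w, hw⟩ := this
    rw [h2]
  have hzP₀ : ∀ w, z (P₀ w) = 0 := fun w => (g w).2
  let c : k := (Fintype.card Q : k)⁻¹
  let P : Module.End k X := c • ∑ x : Q, σ x * P₀ * σ x⁻¹
  have hinv : ∀ (x : Q) (v : X), σ x (σ x⁻¹ v) = v := by
    intro x v
    have : σ x * σ x⁻¹ = 1 := by rw [← map_mul, mul_inv_cancel, map_one]
    exact LinearMap.congr_fun this v
  have hzs : ∀ (x : Q) (v : X), z (σ x v) = σ x (z v) := fun x v => LinearMap.congr_fun (hzc x) v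
  have hPv : ∀ v, P v = c • ∑ x : Q, σ x (P₀ (σ x⁻¹ v)) := by
    intro v
    simp [P, LinearMap.sum_apply]
  have h1 : ∀ v, z (P v) = 0 := by
    intro v
    rw [hPv, map_smul, map_sum]
    simp only [hzs, hzP₀, map_zero, Finset.sum_const_zero, smul_zero]
  have h2 : ∀ w, z w = 0 → P w = w := by
    intro w hw
    rw [hPv]
    have h3 : ∀ x : Q, σ x (P₀ (σ x⁻¹ w)) = w := by
      intro x
      rw [hP₀ _ (by rw [hzs, hw, map_zero]), hinv]
    simp only [h3, Finset.sum_const, Finset.card_univ]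
    rw [← Nat.cast_smul_eq_nsmul k, smul_smul]
    simp [c, hcard]
  have h3 : ∀ y : Q, P * σ y = σ y * P := by
    intro y
    have h4 : ∀ x : Q, σ x * P₀ * σ x⁻¹ * σ y = σ y * (σ (y⁻¹ * x) * P₀ * σ (y⁻¹ * x)⁻¹) := by
      intro x
      have h5 : σ (y⁻¹ * x)⁻¹ * 1 = σ x⁻¹ * σ y := by
        rw [mul_one, ← map_mul]; congr 1; group
      have h6 : σ y * σ (y⁻¹ * x) = σ x := by
        rw [← map_mul]; congr 1; group
      rw [mul_assoc (σ x * P₀), ← h5, mul_one, ← h6]
      simp only [mul_assoc]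
    simp only [P, smul_mul_assoc, Finset.sum_mul, mul_smul_comm, Finset.mul_sum]
    congr 1
    simp_rw [h4]
    exact Fintype.sum_equiv (Equiv.mulLeft y⁻¹) _ _ (fun _ => rfl)
  have h4 : z ∈ Subalgebra.centralizer k {P} := by
    have h5 : Algebra.adjoin k (Set.range σ) ≤ Subalgebra.centralizer k {P} := by
      rw [Algebra.adjoin_le_iff]
      rintro _ ⟨y, rfl⟩
      rw [SetLike.mem_coe, Subalgebra.mem_centralizer_iff]
      rintro _ rfl
      exact h3 y
    exact h5 hz
  have h5 : P * z = z * P := by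
    rw [Subalgebra.mem_centralizer_iff] at h4
    exact h4 P rfl
  ext v
  have h6 : P (z v) = z v := h2 _ (LinearMap.congr_fun hzz v)
  have h7 : P (z v) = z (P v) := LinearMap.congr_fun h5 v
  rw [← h6, h7, h1]
  rfl

theorem free_of_abelian (τ : Representation k H X) (σ : Representation k Q X)
    (hcomm : ∀ x y : Q, σ x * σ y = σ y * σ x)
    (hnorm : ∀ (h : H) (x : Q), ∃ y : Q, τ h * σ x = σ y * τ h)
    (hsurj : ∀ h : H, h ≠ 1 → ∀ y : Q, ∃ x : Q, σ y * σ x * τ h = τ h * σ x)
    (hcard : (Fintype.card Q : k) ≠ 0)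
    (hfix : ∀ v : X, (∀ x : Q, σ x v = v) → v = 0) :
    ∃ W : Submodule k X, iSupIndep (fun h : H => W.map (τ h)) ∧ (⨆ h : H, W.map (τ h)) = ⊤ := by
  classical
  let S : Set (Module.End k X) := Set.range σ
  have hS : ∀ a ∈ S, ∀ b ∈ S, a * b = b * a := by
    rintro _ ⟨x, rfl⟩ _ ⟨y, rfl⟩
    exact hcomm x y
  let A : Subalgebra k (Module.End k X) := Algebra.adjoin k S
  letI : CommRing A := Algebra.adjoinCommRingOfComm k hS
  have hτ1 : ∀ h : H, τ h * τ h⁻¹ = 1 := fun h => by rw [← map_mul, mul_inv_cancel, map_one]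
  have hτ2 : ∀ h : H, τ h⁻¹ * τ h = 1 := fun h => by rw [← map_mul, inv_mul_cancel, map_one]
  have hconj : ∀ (h : H) (z : Module.End k X), z ∈ A → τ h * z * τ h⁻¹ ∈ A := by
    intro h z hz
    induction hz using Algebra.adjoin_induction with
    | mem z hz =>
      obtain ⟨x, rfl⟩ := hz
      obtain ⟨y, hy⟩ := hnorm h x
      rw [hy, mul_assoc, hτ1, mul_one]
      exact Algebra.subset_adjoin ⟨y, rfl⟩
    | algebraMap r =>
      have : τ h * algebraMap k (Module.End k X) r * τ h⁻¹ = algebraMap k (Module.End k X) r := by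
        rw [← Algebra.commutes, mul_assoc, hτ1, mul_one]
      rw [this]
      exact Subalgebra.algebraMap_mem _ r
    | add a b _ _ ha hb =>
      rw [mul_add, add_mul]
      exact Subalgebra.add_mem _ ha hb
    | mul a b _ _ ha hb =>
      have : τ h * (a * b) * τ h⁻¹ = (τ h * a * τ h⁻¹) * (τ h * b * τ h⁻¹) := by
        calc τ h * (a * b) * τ h⁻¹ = τ h * a * 1 * b * τ h⁻¹ := by simp [mul_assoc]
          _ = τ h * a * (τ h⁻¹ * τ h) * b * τ h⁻¹ := by rw [hτ2]
          _ = _ := by simp only [mul_assoc]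
      rw [this]
      exact Subalgebra.mul_mem _ ha hb
  letI act : MulSemiringAction H A :=
    { smul := fun h z => ⟨τ h * (z : Module.End k X) * τ h⁻¹, hconj h _ z.2⟩
      one_smul := fun z => Subtype.ext (by
        show τ 1 * (z : Module.End k X) * τ 1⁻¹ = z
        simp)
      mul_smul := fun a b z => Subtype.ext (by
        show τ (a * b) * (z : Module.End k X) * τ (a * b)⁻¹ = τ a * (τ b * (z : Module.End k X) * τ b⁻¹) * τ a⁻¹
        rw [mul_inv_rev, map_mul, map_mul]
        simp only [mul_assoc])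
      smul_zero := fun a => Subtype.ext (by
        show τ a * (0 : Module.End k X) * τ a⁻¹ = 0
        simp)
      smul_add := fun a x y => Subtype.ext (by
        show τ a * ((x : Module.End k X) + y) * τ a⁻¹ = τ a * (x : Module.End k X) * τ a⁻¹ + τ a * (y : Module.End k X) * τ a⁻¹
        rw [mul_add, add_mul])
      smul_one := fun a => Subtype.ext (by
        show τ a * (1 : Module.End k X) * τ a⁻¹ = 1
        rw [mul_one, hτ1])
      smul_mul := fun a x y => Subtype.ext (by
        show τ a * ((x : Module.End k X) * y) * τ a⁻¹ = (τ a * (x : Module.End k X) * τ a⁻¹) * (τ a * (y : Module.End k X) * τ a⁻¹)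
        calc τ a * ((x : Module.End k X) * y) * τ a⁻¹ = τ a * (x : Module.End k X) * 1 * y * τ a⁻¹ := by simp [mul_assoc]
          _ = τ a * (x : Module.End k X) * (τ a⁻¹ * τ a) * y * τ a⁻¹ := by rw [hτ2]
          _ = _ := by simp only [mul_assoc]) }
  have hsmul : ∀ (h : H) (z : A), ((h • z : A) : Module.End k X) = τ h * (z : Module.End k X) * τ h⁻¹ := fun _ _ => rfl
  let gen : Q → A := fun x => ⟨σ x, Algebra.subset_adjoin ⟨x, rfl⟩⟩
  have hgen1 : ∀ x : Q, gen x * gen x⁻¹ = 1 := fun x => Subtype.ext (by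
    show σ x * σ x⁻¹ = 1
    rw [← map_mul, mul_inv_cancel, map_one])
  haveI : IsReduced A := by
    rw [isReduced_iff_pow_one_lt 2 (by norm_num)]
    intro z hz
    apply Subtype.ext
    refine reduced_aux σ hcard (z : Module.End k X) z.2 ?_ ?_
    · intro x
      exact congrArg Subtype.val (mul_comm z (gen x))
    · have := congrArg Subtype.val hz
      rw [pow_two] at this
      exact this
  haveI : IsArtinianRing A := IsArtinianRing.of_finite k A
  have hsum0 : ∑ y : Q, σ y = 0 := by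
    ext v
    have h1 : (∑ y : Q, σ y) v = 0 := by
      apply hfix
      intro x
      simp only [LinearMap.sum_apply, map_sum]
      have : ∀ y : Q, σ x (σ y v) = σ (x * y) v := fun y => by rw [map_mul]; rfl
      simp_rw [this]
      exact Fintype.sum_equiv (Equiv.mulLeft x) _ _ (fun _ => rfl)
    simpa using h1
  have hinert : ∀ m : Ideal A, m.IsMaximal → ∀ s : H, (∀ z : A, s • z - z ∈ m) → s = 1 := by
    intro m hm s hs
    by_contra hs1
    have h1 : ∀ y : Q, gen y - 1 ∈ m := by
      intro y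
      obtain ⟨x, hx⟩ := hsurj s hs1 y
      have h2 : gen y * gen x = s • gen x := Subtype.ext (by
        show σ y * σ x = τ s * σ x * τ s⁻¹
        rw [← hx, mul_assoc, hτ1, mul_one])
      have h3 : (gen y - 1) * gen x ∈ m := by
        have := hs (gen x)
        rw [← h2] at this
        rwa [sub_mul, one_mul]
      have h4 : (gen y - 1) * gen x * gen x⁻¹ ∈ m := Ideal.mul_mem_right _ _ h3
      rwa [mul_assoc, hgen1, mul_one] at h4
    have h2 : ∑ y : Q, gen y = 0 := Subtype.ext (by
      have h3 : ((∑ y : Q, gen y : A) : Module.End k X) = ∑ y : Q, σ y :=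
        map_sum A.val gen Finset.univ
      rw [h3, hsum0]
      rfl)
    have h3 : ∑ y : Q, (gen y - 1) ∈ m := Ideal.sum_mem _ (fun y _ => h1 y)
    rw [Finset.sum_sub_distrib, h2, zero_sub, neg_mem_iff, Finset.sum_const, Finset.card_univ] at h3
    have h4 : (1 : A) ∈ m := by
      have h5 : ((Fintype.card Q : k)⁻¹ • (1 : A)) * (Fintype.card Q • (1 : A)) = 1 := by
        rw [smul_mul_assoc, ← Nat.cast_smul_eq_nsmul k, mul_smul_comm, one_mul, smul_smul, inv_mul_cancel₀ hcard, one_smul]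
      rw [← h5]
      exact Ideal.mul_mem_left _ _ h3
    exact hm.ne_top ((Ideal.eq_top_iff_one m).2 h4)
  obtain ⟨a, b, hab⟩ := exists_dual_ring (Z := A) (H := H) hinert
  let θ : A →+* Module.End k X :=
    { toFun := fun z => (z : Module.End k X)
      map_one' := rfl
      map_mul' := fun _ _ => rfl
      map_zero' := rfl
      map_add' := fun _ _ => rfl }
  refine internal_of_dual τ θ ?_ a b hab
  intro h z
  show τ h * (z : Module.End k X) = (τ h * (z : Module.End k X) * τ h⁻¹) * τ h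
  rw [mul_assoc _ (τ h⁻¹), hτ2, mul_one]

end Ab


section Sol

open scoped commutatorElement

variable {k V A : Type*} [Field k] [AddCommGroup V] [Module k V]  [Group A] 

/-- Restriction of a representation to a stable subspace. -/
def resRep {G : Type*} [Group G] (r : Representation k G V) (U : Submodule k V)
    (hU : ∀ g, ∀ v ∈ U, r g v ∈ U) : Representation k G U where
  toFun g := (r g).restrict (hU g)
  map_one' := by
    ext v
    simp
  map_mul' a b := by
    ext v
    simp

theorem resRep_apply {G : Type*} [Group G] (r : Representation k G V) (U : Submodule k V)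
    (hU : ∀ g, ∀ v ∈ U, r g v ∈ U) (g : G) (v : U) : ((resRep r U hU g v : U) : V) = r g v := rfl

/-- `U` is free for `H`. -/
def IsFreeSub (ρ : Representation k A V) (H : Subgroup A) (U : Submodule k V) : Prop :=
  ∃ W : Submodule k V, iSupIndep (fun h : H => W.map (ρ h)) ∧ (⨆ h : H, W.map (ρ h)) = U

theorem isFreeSub_bot (ρ : Representation k A V) (H : Subgroup A) : IsFreeSub ρ H ⊥ := by
  refine ⟨⊥, ?_, ?_⟩
  · rw [iSupIndep_def]
    intro h
    simp
  · simp

theorem isFreeSub_sup (ρ : Representation k A V) (H : Subgroup A) {U₁ U₂ : Submodule k V}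
    (h1 : IsFreeSub ρ H U₁) (h2 : IsFreeSub ρ H U₂) (hd : Disjoint U₁ U₂) : IsFreeSub ρ H (U₁ ⊔ U₂) := by
  obtain ⟨W₁, hi1, rfl⟩ := h1
  obtain ⟨W₂, hi2, rfl⟩ := h2
  refine ⟨W₁ ⊔ W₂, ?_, ?_⟩
  · rw [iSupIndep_def]
    intro h
    rw [Submodule.disjoint_def]
    intro x hx hx'
    simp only [Submodule.map_sup] at hx hx'
    obtain ⟨x₁, hx₁, x₂, hx₂, rfl⟩ := Submodule.mem_sup.1 hx
    have h3 : (⨆ j, ⨆ (_ : j ≠ h), (W₁.map (ρ (j : A)) ⊔ W₂.map (ρ (j : A)))) =
        (⨆ j, ⨆ (_ : j ≠ h), W₁.map (ρ (j : A))) ⊔ ⨆ j, ⨆ (_ : j ≠ h), W₂.map (ρ (j : A)) := by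
      simp only [iSup_sup_eq]
    rw [h3] at hx'
    obtain ⟨y₁, hy₁, y₂, hy₂, hy⟩ := Submodule.mem_sup.1 hx'
    have hA1 : x₁ ∈ ⨆ h : H, W₁.map (ρ h) := Submodule.mem_iSup_of_mem h hx₁
    have hA2 : x₂ ∈ ⨆ h : H, W₂.map (ρ h) := Submodule.mem_iSup_of_mem h hx₂
    have hB1 : y₁ ∈ ⨆ h : H, W₁.map (ρ h) := by
      refine (iSup₂_le fun j _ => ?_ : (⨆ j, ⨆ (_ : j ≠ h), W₁.map (ρ (j : A))) ≤ _) hy₁
      exact le_iSup (fun h : H => W₁.map (ρ h)) j
    have hB2 : y₂ ∈ ⨆ h : H, W₂.map (ρ h) := by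
      refine (iSup₂_le fun j _ => ?_ : (⨆ j, ⨆ (_ : j ≠ h), W₂.map (ρ (j : A))) ≤ _) hy₂
      exact le_iSup (fun h : H => W₂.map (ρ h)) j
    have h4 : x₁ - y₁ = y₂ - x₂ := by
      have : x₁ + x₂ = y₁ + y₂ := hy.symm
      calc x₁ - y₁ = (x₁ + x₂) - x₂ - y₁ := by abel
        _ = (y₁ + y₂) - x₂ - y₁ := by rw [this]
        _ = y₂ - x₂ := by abel
    have h5 : x₁ - y₁ = 0 := by
      refine Submodule.disjoint_def.1 hd _ (Submodule.sub_mem _ hA1 hB1) ?_
      rw [h4]
      exact Submodule.sub_mem _ hB2 hA2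
    have h6 : y₂ - x₂ = 0 := by rw [← h4, h5]
    have h7 : x₁ = 0 := by
      refine Submodule.disjoint_def.1 ((iSupIndep_def.1 hi1) h) x₁ hx₁ ?_
      rw [sub_eq_zero.1 h5]
      exact hy₁
    have h8 : x₂ = 0 := by
      refine Submodule.disjoint_def.1 ((iSupIndep_def.1 hi2) h) x₂ hx₂ ?_
      rw [← sub_eq_zero.1 h6]
      exact hy₂
    rw [h7, h8, add_zero]
  · simp only [Submodule.map_sup, iSup_sup_eq]

theorem isFreeSub_of_subtype (ρ : Representation k A V) (H : Subgroup A) (U : Submodule k V)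
    (hU : ∀ h : H, ∀ v ∈ U, ρ h v ∈ U)
    (W' : Submodule k U)
    (h1 : iSupIndep (fun h : H => W'.map (resRep (ρ.comp H.subtype) U hU h)))
    (h2 : (⨆ h : H, W'.map (resRep (ρ.comp H.subtype) U hU h)) = ⊤) : IsFreeSub ρ H U := by
  have hmap : ∀ h : H, (W'.map U.subtype).map (ρ h) =
      (W'.map (resRep (ρ.comp H.subtype) U hU h)).map U.subtype := by
    intro h
    rw [← Submodule.map_comp, ← Submodule.map_comp]
    rfl
  refine ⟨W'.map U.subtype, ?_, ?_⟩
  · simp_rw [hmap]
    rw [iSupIndep_def] at h1 ⊢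
    intro h
    rw [Submodule.disjoint_def]
    rintro x ⟨a, ha, rfl⟩ hx
    have h3 : (⨆ j, ⨆ (_ : j ≠ h), (W'.map (resRep (ρ.comp H.subtype) U hU j)).map U.subtype) =
        (⨆ j, ⨆ (_ : j ≠ h), W'.map (resRep (ρ.comp H.subtype) U hU j)).map U.subtype := by
      simp only [Submodule.map_iSup]
    rw [h3] at hx
    obtain ⟨b, hb, hab⟩ := hx
    have h4 : b = a := Subtype.ext hab
    rw [h4] at hb
    have := Submodule.disjoint_def.1 (h1 h) a ha hb
    rw [this]
    rfl
  · simp_rw [hmap]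
    rw [← Submodule.map_iSup, h2, Submodule.map_top, Submodule.range_subtype]

theorem free_solvable [Finite A] [FiniteDimensional k V] (ρ : Representation k A V) (H : Subgroup A) :
    ∀ (n : ℕ) (E : Subgroup A), Nat.card E = n → Group.IsSolvable E →
      (∀ h ∈ H, ∀ x ∈ E, h * x * h⁻¹ ∈ E) → ((Nat.card E : ℕ) : k) ≠ 0 →
      (∀ h ∈ H, h ≠ 1 → ∀ x ∈ E, h * x * h⁻¹ = x → x = 1) →
      ∀ U : Submodule k V, (∀ h ∈ H, ∀ v ∈ U, ρ h v ∈ U) → (∀ x ∈ E, ∀ v ∈ U, ρ x v ∈ U) →
        (∀ v ∈ U, (∀ x ∈ E, ρ x v = v) → v = 0) → IsFreeSub ρ H U := by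
  classical
  intro n
  induction n using Nat.strong_induction_on with
  | _ n ih =>
  intro E hn hsol hHE hcard hfpf U hUH hUE hUfix
  by_cases hE : E = ⊥
  · have hU0 : U = ⊥ := by
      rw [eq_bot_iff]
      intro v hv
      rw [Submodule.mem_bot]
      refine hUfix v hv ?_
      intro x hx
      rw [hE, Subgroup.mem_bot] at hx
      rw [hx, map_one]
      rfl
    rw [hU0]
    exact isFreeSub_bot ρ H
  -- the commutator subgroup
  have hEne : (⊤ : Subgroup E) ≠ ⊥ := by
    intro h
    apply hE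
    rw [eq_bot_iff]
    intro x hx
    have : (⟨x, hx⟩ : E) ∈ (⊥ : Subgroup E) := h ▸ Subgroup.mem_top _
    have h2 := Subgroup.mem_bot.1 this
    exact Subgroup.mem_bot.2 (congrArg Subtype.val h2)
  set D : Subgroup A := ⁅E, E⁆ with hD
  have hDmap : (commutator E).map E.subtype = D := Subgroup.map_subtype_commutator E
  have hDE : D ≤ E := by
    rw [← hDmap]
    exact Subgroup.map_subtype_le _
  have hDlt : D < E := by
    haveI : Nontrivial E := by
      by_contra hnt
      rw [not_nontrivial_iff_subsingleton] at hnt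
      exact hEne (Subsingleton.elim _ _)
    haveI := hsol
    have h1 : commutator E < ⊤ := Group.IsSolvable.commutator_lt_top_of_nontrivial E
    refine lt_of_le_of_ne hDE ?_
    intro h2
    apply h1.ne
    have h3 : (commutator E).map E.subtype = (⊤ : Subgroup E).map E.subtype := by
      rw [hDmap, h2, ← MonoidHom.range_eq_map, Subgroup.range_subtype]
    exact Subgroup.map_injective E.subtype_injective h3
  have hcardlt : Nat.card D < n := by
    rw [← hn]
    haveI : Fintype E := Fintype.ofFinite _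
    haveI : Fintype D := Fintype.ofFinite _
    rw [Nat.card_eq_fintype_card, Nat.card_eq_fintype_card]
    refine Fintype.card_lt_of_injective_not_surjective (Subgroup.inclusion hDE) (Subgroup.inclusion_injective _) ?_
    intro hs
    apply hDlt.not_ge
    intro x hx
    obtain ⟨d, hd⟩ := hs ⟨x, hx⟩
    have : (d : A) = x := congrArg Subtype.val hd
    rw [← this]
    exact d.2
  have hnormD : ∀ g : A, (∀ x ∈ E, g * x * g⁻¹ ∈ E) → ∀ d ∈ D, g * d * g⁻¹ ∈ D := by
    intro g hg d hd
    have h1 : E.map (MulAut.conj g).toMonoidHom ≤ E := by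
      rintro _ ⟨x, hx, rfl⟩
      exact hg x hx
    have h2 : D.map (MulAut.conj g).toMonoidHom ≤ D := by
      rw [hD, Subgroup.map_commutator]
      exact Subgroup.commutator_mono h1 h1
    exact h2 ⟨d, hd, rfl⟩
  haveI : Fintype D := Fintype.ofFinite _
  have hcD : ((Fintype.card D : ℕ) : k) ≠ 0 := by
    rw [← Nat.card_eq_fintype_card]
    intro h0
    obtain ⟨c, hc⟩ := Subgroup.card_dvd_of_le hDE
    apply hcard
    rw [hc, Nat.cast_mul, h0, zero_mul]
  -- the averaging operator
  let c : k := ((Fintype.card D : ℕ) : k)⁻¹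
  let a : Module.End k V := c • ∑ d : D, ρ d
  have ha_apply : ∀ v, a v = c • ∑ d : D, ρ d v := by
    intro v
    simp [a, LinearMap.sum_apply]
  have hmul : ∀ (x y : A) (v : V), ρ x (ρ y v) = ρ (x * y) v := fun x y v => by rw [map_mul]; rfl
  have ha_left : ∀ d ∈ D, ∀ v, ρ d (a v) = a v := by
    intro d hd v
    rw [ha_apply, map_smul, map_sum]
    simp_rw [hmul]
    congr 1
    exact Fintype.sum_equiv (Equiv.mulLeft (⟨d, hd⟩ : D)) _ _ (fun _ => rfl)
  have ha_right : ∀ d ∈ D, ∀ v, a (ρ d v) = a v := by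
    intro d hd v
    rw [ha_apply, ha_apply]
    simp_rw [hmul]
    congr 1
    exact Fintype.sum_equiv (Equiv.mulRight (⟨d, hd⟩ : D)) _ _ (fun _ => rfl)
  have ha_fix : ∀ v, (∀ d ∈ D, ρ d v = v) → a v = v := by
    intro v hv
    rw [ha_apply]
    have : ∀ d : D, ρ d v = v := fun d => hv d d.2
    simp only [this, Finset.sum_const, Finset.card_univ]
    rw [← Nat.cast_smul_eq_nsmul k, smul_smul]
    simp [c, hcD]
  have ha_comm : ∀ g : A, (∀ x ∈ E, g * x * g⁻¹ ∈ E) → (∀ x ∈ E, g⁻¹ * x * g ∈ E) → ∀ v, ρ g (a v) = a (ρ g v) := by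
    intro g hg hg' v
    rw [ha_apply, ha_apply, map_smul, map_sum]
    congr 1
    have hbij : Function.Bijective (fun d : D => (⟨g * d * g⁻¹, hnormD g hg d d.2⟩ : D)) := by
      apply Finite.injective_iff_bijective.1
      intro d₁ d₂ h
      have h1 : g * (d₁ : A) * g⁻¹ = g * d₂ * g⁻¹ := congrArg Subtype.val h
      apply Subtype.ext
      simpa using h1
    rw [← Function.Bijective.sum_comp hbij (fun d : D => ρ d (ρ g v))]
    apply Finset.sum_congr rfl
    intro d _
    show ρ g (ρ d v) = ρ (g * d * g⁻¹) (ρ g v)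
    rw [hmul, hmul]
    simp
  have haU : ∀ v ∈ U, a v ∈ U := by
    intro v hv
    rw [ha_apply]
    refine Submodule.smul_mem _ _ (Submodule.sum_mem _ fun d _ => hUE d (hDE d.2) v hv)
  have haa : ∀ v, a (a v) = a v := fun v => ha_fix _ (fun d hd => ha_left d hd v)
  have hHinv : ∀ h ∈ H, ∀ x ∈ E, h⁻¹ * x * h ∈ E := by
    intro h hh x hx
    have := hHE h⁻¹ (inv_mem hh) x hx
    simpa using this
  have hEinv : ∀ y ∈ E, ∀ x ∈ E, y⁻¹ * x * y ∈ E := fun y hy x hx =>
    mul_mem (mul_mem (inv_mem hy) hx) hy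
  have hEinv' : ∀ y ∈ E, ∀ x ∈ E, y * x * y⁻¹ ∈ E := fun y hy x hx =>
    mul_mem (mul_mem hy hx) (inv_mem hy)
  -- the two pieces
  let U₂ : Submodule k V := U ⊓ LinearMap.ker a
  let U₁ : Submodule k V := U ⊓ LinearMap.ker (a - 1)
  have hU₁mem : ∀ v, v ∈ U₁ ↔ v ∈ U ∧ a v = v := by
    intro v
    show v ∈ U ∧ (a - 1) v = 0 ↔ _
    simp [sub_eq_zero]
  have hU₂mem : ∀ v, v ∈ U₂ ↔ v ∈ U ∧ a v = 0 := fun v => Iff.rfl
  have hU : U = U₁ ⊔ U₂ := by
    apply le_antisymm
    · intro v hv
      rw [Submodule.mem_sup]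
      refine ⟨a v, (hU₁mem _).2 ⟨haU v hv, haa v⟩, v - a v, (hU₂mem _).2 ⟨Submodule.sub_mem _ hv (haU v hv), ?_⟩, ?_⟩
      · rw [map_sub, haa, sub_self]
      · abel
    · exact sup_le inf_le_left inf_le_left
  have hdisj : Disjoint U₁ U₂ := by
    rw [Submodule.disjoint_def]
    intro v h1 h2
    rw [← ((hU₁mem v).1 h1).2]
    exact ((hU₂mem v).1 h2).2
  rw [hU]
  refine isFreeSub_sup ρ H ?_ ?_ hdisj
  · -- the abelian piece
    have hfixD : ∀ v ∈ U₁, ∀ d ∈ D, ρ d v = v := by
      intro v hv d hd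
      rw [← ((hU₁mem v).1 hv).2]
      exact ha_left d hd v
    have hU₁H : ∀ h : H, ∀ v ∈ U₁, (ρ h) v ∈ U₁ := by
      intro h v hv
      obtain ⟨hv1, hv2⟩ := (hU₁mem v).1 hv
      refine (hU₁mem _).2 ⟨hUH h h.2 v hv1, ?_⟩
      rw [← ha_comm h (hHE h h.2) (hHinv h h.2), hv2]
    have hU₁E : ∀ x : E, ∀ v ∈ U₁, (ρ x) v ∈ U₁ := by
      intro x v hv
      obtain ⟨hv1, hv2⟩ := (hU₁mem v).1 hv
      refine (hU₁mem _).2 ⟨hUE x x.2 v hv1, ?_⟩
      rw [← ha_comm x (hEinv' x x.2) (hEinv x x.2), hv2]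
    let τ : Representation k H U₁ := resRep (ρ.comp H.subtype) U₁ hU₁H
    let σ : Representation k E U₁ := resRep (ρ.comp E.subtype) U₁ hU₁E
    haveI : Fintype H := Fintype.ofFinite _
    haveI : Fintype E := Fintype.ofFinite _
    have hτ : ∀ (h : H) (v : U₁), ((τ h v : U₁) : V) = ρ h v := fun _ _ => rfl
    have hσ : ∀ (x : E) (v : U₁), ((σ x v : U₁) : V) = ρ x v := fun _ _ => rfl
    suffices hh : ∃ W' : Submodule k U₁, iSupIndep (fun h : H => W'.map (τ h)) ∧ (⨆ h : H, W'.map (τ h)) = ⊤ by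
      obtain ⟨W', h1, h2⟩ := hh
      exact isFreeSub_of_subtype ρ H U₁ hU₁H W' h1 h2
    apply free_of_abelian τ σ
    · -- commuting
      intro x y
      ext v
      show ρ x (ρ y (v : V)) = ρ y (ρ x (v : V))
      rw [hmul, hmul]
      have h1 : (x : A) * y = y * x * ⁅(x : A)⁻¹, (y : A)⁻¹⁆ := by
        simp [commutatorElement_def, mul_assoc]
      have h2 : ⁅(x : A)⁻¹, (y : A)⁻¹⁆ ∈ D :=
        Subgroup.commutator_mem_commutator (inv_mem x.2) (inv_mem y.2)
      rw [h1, map_mul]
      show ρ (y * x : A) (ρ _ (v : V)) = _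
      rw [hfixD v v.2 _ h2]
    · intro h x
      refine ⟨⟨h * x * (h : A)⁻¹, hHE h h.2 x x.2⟩, ?_⟩
      ext v
      show ρ h (ρ x (v : V)) = ρ (h * x * (h : A)⁻¹) (ρ h (v : V))
      rw [hmul, hmul]
      simp
    · intro h hh1 y
      have hinj : Function.Injective (fun x : E =>
          (⟨h * x * (h : A)⁻¹ * (x : A)⁻¹, mul_mem (hHE h h.2 x x.2) (inv_mem x.2)⟩ : E)) := by
        intro x₁ x₂ h12
        have h3 : (h : A) * x₁ * (h : A)⁻¹ * (x₁ : A)⁻¹ = h * x₂ * (h : A)⁻¹ * (x₂ : A)⁻¹ :=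
          congrArg Subtype.val h12
        have h4 : (h : A) * ((x₂ : A)⁻¹ * x₁) * (h : A)⁻¹ = (x₂ : A)⁻¹ * x₁ := by
          have h5 : ((h : A) * x₂ * (h : A)⁻¹)⁻¹ * ((h : A) * x₁ * (h : A)⁻¹) = (x₂ : A)⁻¹ * x₁ := by
            have h6 : (h : A) * x₁ * (h : A)⁻¹ = ((h : A) * x₂ * (h : A)⁻¹ * (x₂ : A)⁻¹) * x₁ := by
              rw [← h3]; group
            rw [h6]; group
          calc (h : A) * ((x₂ : A)⁻¹ * x₁) * (h : A)⁻¹ = ((h : A) * x₂ * (h : A)⁻¹)⁻¹ * ((h : A) * x₁ * (h : A)⁻¹) := by group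
            _ = _ := h5
        have h7 := hfpf h h.2 (fun h0 => hh1 (Subtype.ext h0)) _ (mul_mem (inv_mem x₂.2) x₁.2) h4
        apply Subtype.ext
        exact (inv_mul_eq_one.1 h7).symm
      obtain ⟨x, hx⟩ := (Finite.injective_iff_surjective.1 hinj) y
      refine ⟨x, ?_⟩
      ext v
      show ρ y (ρ x (ρ h (v : V))) = ρ h (ρ x (v : V))
      rw [hmul, hmul, hmul, ← hx]
      simp
    · rw [← Nat.card_eq_fintype_card]
      exact hcard
    · intro v hv
      apply Subtype.ext
      refine hUfix v ((hU₁mem _).1 v.2).1 ?_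
      intro x hx
      exact congrArg Subtype.val (hv ⟨x, hx⟩)
  · -- the piece of the commutator subgroup
    refine ih _ hcardlt D rfl ?_ ?_ ?_ ?_ U₂ ?_ ?_ ?_
    · haveI := hsol
      exact Group.isSolvable_of_isSolvable_injective (Subgroup.inclusion_injective hDE)
    · exact fun h hh x hx => hnormD h (hHE h hh) x hx
    · rwa [Nat.card_eq_fintype_card]
    · exact fun h hh hh1 x hx => hfpf h hh hh1 x (hDE hx)
    · intro h hh v hv
      obtain ⟨hv1, hv2⟩ := (hU₂mem v).1 hv
      refine (hU₂mem _).2 ⟨hUH h hh v hv1, ?_⟩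
      rw [← ha_comm h (hHE h hh) (hHinv h hh), hv2, map_zero]
    · intro d hd v hv
      obtain ⟨hv1, hv2⟩ := (hU₂mem v).1 hv
      refine (hU₂mem _).2 ⟨hUE d (hDE hd) v hv1, ?_⟩
      rw [ha_right d hd, hv2]
    · intro v hv hfix
      rw [← ha_fix v hfix]
      exact ((hU₂mem v).1 hv).2

end Sol


theorem exists_fixed_vec {k V G : Type*} [Field k] [AddCommGroup V] [Module k V] [Group G] [Finite G]
    (p : ℕ) [hp : Fact p.Prime] [CharP k p] (hG : IsPGroup p G) (r : Representation k G V)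
    (U : Submodule k V) (hU : ∀ g, ∀ v ∈ U, r g v ∈ U) {u : V} (hu : u ∈ U) (hu0 : u ≠ 0) :
    ∃ v ∈ U, v ≠ 0 ∧ ∀ g, r g v = v := by
  classical
  let N : AddSubgroup V := AddSubgroup.closure (Set.range fun g => r g u)
  have hmem : ∀ g, ∀ x ∈ N, r g x ∈ N := by
    intro g x hx
    induction hx using AddSubgroup.closure_induction with
    | mem x hx =>
      obtain ⟨g', rfl⟩ := hx
      apply AddSubgroup.subset_closure
      exact ⟨g * g', by simp [map_mul]⟩
    | zero => rw [map_zero]; exact N.zero_mem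
    | add a b _ _ ha hb => rw [map_add]; exact N.add_mem ha hb
    | neg a _ ha => rw [map_neg]; exact N.neg_mem ha
  have hNU : ∀ x ∈ N, x ∈ U := by
    intro x hx
    induction hx using AddSubgroup.closure_induction with
    | mem x hx =>
      obtain ⟨g', rfl⟩ := hx
      exact hU g' u hu
    | zero => exact U.zero_mem
    | add a b _ _ ha hb => exact U.add_mem ha hb
    | neg a _ ha => exact U.neg_mem ha
  have hp0 : ∀ x : V, p • x = 0 := by
    intro x
    rw [← Nat.cast_smul_eq_nsmul k, CharP.cast_eq_zero, zero_smul]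
  haveI : Finite N := by
    haveI : AddGroup.FG N := by
      rw [AddGroup.fg_iff_addSubgroup_fg]
      exact ⟨(Set.finite_range (fun g => r g u)).toFinset, by simp [N]⟩
    apply AddCommGroup.finite_of_fg_isAddTorsion
    intro x
    rw [isOfFinAddOrder_iff_nsmul_eq_zero]
    refine ⟨p, hp.out.pos, Subtype.ext (hp0 _)⟩
  letI act : MulAction G N :=
    { smul := fun g x => ⟨r g x, hmem g x x.2⟩
      one_smul := fun x => Subtype.ext (by
        show r 1 (x : V) = x
        simp)
      mul_smul := fun a b x => Subtype.ext (by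
        show r (a * b) (x : V) = r a (r b x)
        simp [map_mul]) }
  have hu1 : u ∈ N := by
    apply AddSubgroup.subset_closure
    exact ⟨1, by simp⟩
  have hdvd : p ∣ Nat.card N := by
    have hord : addOrderOf (⟨u, hu1⟩ : N) = p := by
      apply addOrderOf_eq_prime
      · exact Subtype.ext (hp0 u)
      · intro h
        exact hu0 (congrArg Subtype.val h)
    rw [← hord]
    exact addOrderOf_dvd_natCard _
  have hfix : (0 : N) ∈ MulAction.fixedPoints G N := by
    intro g
    apply Subtype.ext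
    show r g (0 : V) = 0
    simp
  obtain ⟨b, hb, hb0⟩ := hG.exists_fixed_point_of_prime_dvd_card_of_fixed_point N hdvd hfix
  refine ⟨b, hNU _ b.2, ?_, ?_⟩
  · intro h
    exact hb0 (Subtype.ext h.symm)
  · intro g
    exact congrArg Subtype.val (hb g)


end Cfsg.Agent.Lib.FreeFrob
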