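import Mathlib

/-!
# Frobenius groups of automorphisms: commutative core.

`A` acts on a finite abelian group `M` by `σ`.  `E` is a subgroup normalized by `H`, with `H`
acting fixed point freely on `E`.  If `E` has no fixed points on `M` the norm of `E` vanishes, which
gives a formula for `m ^ |E|` in terms of the norms of the conjugates of `H`; a vanishing of `H¹`;
and the key lemma on abelian sections (`final_core`).
-/

set_option autoImplicit false

open scoped Classical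

namespace Cfsg.Agent.Lib.FrobAut

universe u

section Core

variable {A : Type*} [Group A] [Fintype A] {M : Type*} [CommGroup M] [Finite M]

/-- Product over a subgroup of `A`. -/
noncomputable def pr {M : Type*} [CommGroup M] (B : Subgroup A) (g : A → M) : M := ∏ x : B, g x

variable {M' : Type*} [CommGroup M']

theorem pr_mul (B : Subgroup A) (g g' : A → M') :
    pr B (fun x => g x * g' x) = pr B g * pr B g' := by
  simp [pr, Finset.prod_mul_distrib]

theorem pr_inv (B : Subgroup A) (g : A → M') : pr B (fun x => (g x)⁻¹) = (pr B g)⁻¹ := by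
  simp [pr, Finset.prod_inv_distrib]

theorem pr_pow (B : Subgroup A) (g : A → M') (n : ℕ) : pr B (fun x => (g x) ^ n) = (pr B g) ^ n := by
  simp [pr, Finset.prod_pow]

theorem pr_const (B : Subgroup A) (m : M') : pr B (fun _ => m) = m ^ Nat.card B := by
  simp [pr, Finset.prod_const, Nat.card_eq_fintype_card]

theorem map_pr {F : Type*} [FunLike F M' M'] [MonoidHomClass F M' M'] (f : F) (B : Subgroup A)
    (g : A → M') : f (pr B g) = pr B (fun x => f (g x)) := by
  simp [pr, map_prod]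

theorem pr_congr (B : Subgroup A) {g g' : A → M'} (h : ∀ x ∈ B, g x = g' x) : pr B g = pr B g' := by
  apply Finset.prod_congr rfl
  intro x _
  exact h x x.2

theorem pr_comm (B C : Subgroup A) (g : A → A → M') :
    pr B (fun x => pr C (fun y => g x y)) = pr C (fun y => pr B (fun x => g x y)) := by
  simp only [pr]
  exact Finset.prod_comm

/-- Reindexing by a bijection of `B`. -/
theorem pr_reindex (B : Subgroup A) (τ : B → B) (hτ : Function.Injective τ) (g : A → M') :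
    pr B (fun x => g x) = ∏ x : B, g (τ x) := by
  have hb : Function.Bijective τ := Finite.injective_iff_bijective.mp hτ
  simp only [pr]
  exact (Fintype.prod_bijective τ hb _ _ (fun _ => rfl)).symm

/-- Dropping the factors that are trivial outside `S`. -/
theorem pr_inf (B S : Subgroup A) (g : A → M') (h : ∀ x ∈ B, x ∉ S → g x = 1) :
    pr B g = pr (B ⊓ S) g := by
  simp only [pr]
  have h1 : ∏ x : B, g x = ∏ x ∈ (Finset.univ.filter (· ∈ B) : Finset A), g x := by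
    rw [Finset.prod_subtype (Finset.univ.filter (· ∈ B)) (p := (· ∈ B)) (by simp)]
  have h2 : ∏ x : (B ⊓ S : Subgroup A), g x
      = ∏ x ∈ (Finset.univ.filter (· ∈ (B ⊓ S : Subgroup A)) : Finset A), g x := by
    rw [Finset.prod_subtype (Finset.univ.filter (· ∈ (B ⊓ S : Subgroup A)))
      (p := (· ∈ (B ⊓ S : Subgroup A))) (by simp)]
  rw [h1, h2]
  symm
  apply Finset.prod_subset
  · intro x hx
    simp only [Finset.mem_filter, Finset.mem_univ, true_and] at hx ⊢
    exact hx.1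
  · intro x hx hx'
    simp only [Finset.mem_filter, Finset.mem_univ, true_and] at hx hx'
    apply h x hx
    intro hS
    exact hx' ⟨hx, hS⟩

/-- Extracting the factor of `1`. -/
theorem pr_eq_of_one (D : Subgroup A) (g : A → M') (h : ∀ x ∈ D, x ≠ 1 → g x = 1) :
    pr D g = g 1 := by
  simp only [pr]
  rw [Finset.prod_eq_single (1 : D)]
  · rfl
  · intro b _ hb
    exact h b b.2 (fun h0 => hb (Subtype.ext h0))
  · simp

variable (σ : A →* MulAut M)

theorem sm (a b : A) (m : M) : σ a (σ b m) = σ (a * b) m := by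
  rw [map_mul]; rfl

/-- The core computation: `∏_{h ∈ D} ∏_{e ∈ B} σ(e h e⁻¹) m = m ^ |B|`. -/
theorem core (B D : Subgroup A) (hBD : ∀ h ∈ D, ∀ e ∈ B, h * e * h⁻¹ ∈ B)
    (hfpf : ∀ h ∈ D, h ≠ 1 → ∀ e ∈ B, h * e * h⁻¹ = e → e = 1)
    (W : Set M) (hW : ∀ h ∈ D, ∀ w ∈ W, σ h w ∈ W)
    (hnorm : ∀ w ∈ W, pr B (fun e => σ e w) = 1) (m : M) (hm : m ∈ W) :
    pr D (fun h => pr B (fun e => σ (e * h * e⁻¹) m)) = m ^ Nat.card B := by
  rw [pr_eq_of_one]
  · have : ∀ e ∈ B, σ (e * 1 * e⁻¹) m = m := by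
      intro e _
      simp
    rw [pr_congr B this, pr_const]
  · intro h hh hne
    have hinv : ∀ e : B, h * (e : A)⁻¹ * h⁻¹ ∈ B := fun e => hBD h hh _ (inv_mem e.2)
    let τ : B → B := fun e => ⟨(e : A) * (h * (e : A)⁻¹ * h⁻¹), mul_mem e.2 (hinv e)⟩
    have hτ : Function.Injective τ := by
      intro e₁ e₂ h12
      have h1 : (e₁ : A) * (h * (e₁ : A)⁻¹ * h⁻¹) = (e₂ : A) * (h * (e₂ : A)⁻¹ * h⁻¹) :=
        congrArg Subtype.val h12
      have h2 : h * ((e₂ : A)⁻¹ * e₁) * h⁻¹ = (e₂ : A)⁻¹ * e₁ := by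
        have h3 : (e₂ : A)⁻¹ * e₁ = h * (e₂ : A)⁻¹ * h⁻¹ * (h * e₁ * h⁻¹) := by
          have : (e₂ : A)⁻¹ * (e₁ * (h * (e₁ : A)⁻¹ * h⁻¹)) * (h * e₁ * h⁻¹)
              = (e₂ : A)⁻¹ * (e₂ * (h * (e₂ : A)⁻¹ * h⁻¹)) * (h * e₁ * h⁻¹) := by rw [h1]
          simpa [mul_assoc] using this
        calc h * ((e₂ : A)⁻¹ * e₁) * h⁻¹ = h * (e₂ : A)⁻¹ * h⁻¹ * (h * e₁ * h⁻¹) := by group
          _ = (e₂ : A)⁻¹ * e₁ := h3.symm
      have h4 := hfpf h hh hne _ (mul_mem (inv_mem e₂.2) e₁.2) h2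
      apply Subtype.ext
      have h5 : (e₁ : A) = e₂ := by
        have := congrArg (fun x => (e₂ : A) * x) h4
        simpa using this
      exact h5
    have h1 : ∀ e : B, σ ((e : A) * h * (e : A)⁻¹) m = σ (τ e) (σ h m) := by
      intro e
      rw [sm]
      congr 2
      simp only [τ]
      group
    simp only [pr]
    calc ∏ e : B, σ ((e : A) * h * (e : A)⁻¹) m = ∏ e : B, σ (τ e) (σ h m) :=
          Finset.prod_congr rfl (fun e _ => h1 e)
      _ = pr B (fun e => σ e (σ h m)) := (pr_reindex B τ hτ (fun e => σ e (σ h m))).symm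
      _ = 1 := hnorm _ (hW h hh m hm)

/-- If `E` has no fixed points then the norm of `E` vanishes. -/
theorem norm_eq_one (E : Subgroup A) (hfix : ∀ m : M, (∀ e ∈ E, σ e m = m) → m = 1) (m : M) :
    pr E (fun e => σ e m) = 1 := by
  apply hfix
  intro e he
  rw [map_pr]
  simp only [pr]
  have : ∀ x : E, σ e (σ (x : A) m) = σ (((⟨e, he⟩ : E) * x : E) : A) m := by
    intro x
    rw [sm]; rfl
  simp only [this]
  exact Fintype.prod_equiv (Equiv.mulLeft (⟨e, he⟩ : E)) _ _ (fun _ => rfl)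

theorem pow_injective_of_coprime {n : ℕ} (h : Nat.Coprime n (Nat.card M)) {x y : M}
    (hxy : x ^ n = y ^ n) : x = y :=
  (powCoprime h.symm).injective hxy

theorem exists_pow_eq_of_coprime {n : ℕ} (h : Nat.Coprime n (Nat.card M)) (x : M) :
    ∃ y : M, y ^ n = x :=
  (powCoprime h.symm).surjective x

/-- The `H`-norm of an element is fixed by `H`. -/
theorem norm_fixed (H : Subgroup A) (m : M) (h : A) (hh : h ∈ H) :
    σ h (pr H (fun k => σ k m)) = pr H (fun k => σ k m) := by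
  rw [map_pr]
  simp only [pr]
  have : ∀ x : H, σ h (σ (x : A) m) = σ (((⟨h, hh⟩ : H) * x : H) : A) m := by
    intro x
    rw [sm]; rfl
  simp only [this]
  exact Fintype.prod_equiv (Equiv.mulLeft (⟨h, hh⟩ : H)) _ _ (fun _ => rfl)

/-- Generation: `m ^ |E|` is a product of `E`-translates of `H`-norms. -/
theorem star_gen {Q : Type*} [CommGroup Q] [Finite Q] (ψ : A →* MulAut Q) (E H : Subgroup A)
    (hEH : ∀ h ∈ H, ∀ e ∈ E, h * e * h⁻¹ ∈ E)
    (hfpf : ∀ h ∈ H, h ≠ 1 → ∀ e ∈ E, h * e * h⁻¹ = e → e = 1)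
    (hfix : ∀ m : Q, (∀ e ∈ E, ψ e m = m) → m = 1)
    (hc : Nat.Coprime (Nat.card E) (Nat.card Q)) (K : Subgroup Q) (hK : K ≠ ⊤) :
    ∃ a : A, ∃ y : Q, (∀ h ∈ H, ψ h y = y) ∧ ψ a y ∉ K := by
  by_contra hcon
  push Not at hcon
  apply hK
  rw [eq_top_iff]
  intro z _
  obtain ⟨z', hz'⟩ := exists_pow_eq_of_coprime hc z
  rw [← hz']
  have h1 := core ψ E H hEH hfpf Set.univ (fun _ _ _ _ => trivial)
    (fun w _ => norm_eq_one ψ E hfix w) z' trivial
  rw [← h1, pr_comm]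
  have h2 : ∀ e ∈ E, pr H (fun h => ψ (e * h * e⁻¹) z')
      = ψ e (pr H (fun h => ψ h (ψ e⁻¹ z'))) := by
    intro e _
    rw [map_pr]
    apply pr_congr
    intro h _
    rw [sm, sm]
  rw [pr_congr E h2]
  simp only [pr]
  apply Subgroup.prod_mem
  intro e _
  exact hcon e _ (fun h hh => norm_fixed ψ H _ h hh)

end Core


section Final

variable {A : Type*} [Group A] [Fintype A] {M : Type*} [CommGroup M] [Finite M]
variable {Q : Type*} [CommGroup Q] [Fintype Q]

/-- The fixed points of `K`. -/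
def cM (ρ : Q →* MulAut M) (K : Subgroup Q) (m : M) : Prop := ∀ k ∈ K, ρ k m = m

/-- The stabilizer of `K` in `A`. -/
def stabK (ψ : A →* MulAut Q) (K : Subgroup Q) : Subgroup A where
  carrier := {a | ∀ x, ψ a x ∈ K ↔ x ∈ K}
  one_mem' := by intro x; simp
  mul_mem' := by
    intro a b ha hb x
    rw [map_mul, MulAut.mul_apply, ha, hb]
  inv_mem' := by
    intro a ha x
    rw [← ha]
    simp

theorem mem_stabK {ψ : A →* MulAut Q} {K : Subgroup Q} {a : A} :
    a ∈ stabK ψ K ↔ ∀ x, ψ a x ∈ K ↔ x ∈ K := Iff.rfl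

/-- The trace of `K`. -/
noncomputable def trK (ρ : Q →* MulAut M) (K : Subgroup Q) : M →* M :=
  ∏ k : K, ((ρ (k : Q) : MulAut M) : M →* M)

theorem trK_apply (ρ : Q →* MulAut M) (K : Subgroup Q) (m : M) :
    trK ρ K m = ∏ k : K, ρ (k : Q) m := by
  simp [trK]

theorem smq (ρ : Q →* MulAut M) (a b : Q) (m : M) : ρ a (ρ b m) = ρ (a * b) m := by
  rw [map_mul]; rfl

theorem trK_of_fixed (ρ : Q →* MulAut M) (K : Subgroup Q) {m : M} (hm : cM ρ K m) :
    trK ρ K m = m ^ Nat.card K := by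
  rw [trK_apply]
  have : ∀ k : K, ρ (k : Q) m = m := fun k => hm k k.2
  simp [this, Finset.prod_const, Nat.card_eq_fintype_card]

theorem trK_fixed (ρ : Q →* MulAut M) (K : Subgroup Q) (m : M) : cM ρ K (trK ρ K m) := by
  intro k hk
  rw [trK_apply, map_prod]
  have : ∀ x : K, ρ k (ρ (x : Q) m) = ρ (((⟨k, hk⟩ : K) * x : K) : Q) m := by
    intro x
    rw [smq]; rfl
  simp only [this]
  exact Fintype.prod_equiv (Equiv.mulLeft (⟨k, hk⟩ : K)) _ _ (fun _ => rfl)

/-- The fixer of a vector is a subgroup. -/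
def fixer (ρ : Q →* MulAut M) (m : M) : Subgroup Q where
  carrier := {z | ρ z m = m}
  one_mem' := by simp
  mul_mem' := by
    intro a b ha hb
    simp only [Set.mem_setOf_eq] at ha hb ⊢
    rw [map_mul, MulAut.mul_apply, hb, ha]
  inv_mem' := by
    intro a ha
    simp only [Set.mem_setOf_eq] at ha ⊢
    have h1 : ρ a⁻¹ (ρ a m) = m := by
      rw [map_inv]
      simp
    rwa [ha] at h1

theorem mem_fixer {ρ : Q →* MulAut M} {m : M} {z : Q} : z ∈ fixer ρ m ↔ ρ z m = m := Iff.rfl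

theorem cM_iff (ρ : Q →* MulAut M) (K : Subgroup Q) (m : M) : cM ρ K m ↔ K ≤ fixer ρ m := Iff.rfl

/-- The family of subgroups having a nontrivial fixed vector. -/
def fam (ρ : Q →* MulAut M) : Set (Subgroup Q) := {K | ∃ m : M, m ≠ 1 ∧ cM ρ K m}

variable (σ : A →* MulAut M) (ψ : A →* MulAut Q) (ρ : Q →* MulAut M)

theorem cM_map (hcomp : ∀ a y m, σ a (ρ y m) = ρ (ψ a y) (σ a m)) {K : Subgroup Q} {m : M}
    (hm : cM ρ K m) (a : A) : cM ρ (K.map (ψ a : Q →* Q)) (σ a m) := by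
  rintro _ ⟨k, hk, rfl⟩
  have h1 := hcomp a k m
  rw [hm k hk] at h1
  exact h1.symm

/-- Key step with maximal `K` and a fixed element `y` outside `K`. -/
theorem final_step (hcomp : ∀ a y m, σ a (ρ y m) = ρ (ψ a y) (σ a m))
    (E H : Subgroup A) (hEH : ∀ h ∈ H, ∀ e ∈ E, h * e * h⁻¹ ∈ E)
    (hfpf : ∀ h ∈ H, h ≠ 1 → ∀ e ∈ E, h * e * h⁻¹ = e → e = 1)
    (hEfix : ∀ m : M, (∀ e ∈ E, σ e m = m) → m = 1)
    (hcE : Nat.Coprime (Nat.card E) (Nat.card M)) (hcQ : Nat.Coprime (Nat.card Q) (Nat.card M))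
    (hY : ∀ y, (∀ h ∈ H, ψ h y = y) → ∀ v, (∀ h ∈ H, σ h v = v) → ρ y v = v)
    (K : Subgroup Q) (hK : Maximal (· ∈ fam ρ) K)
    (y : Q) (hy : ∀ h ∈ H, ψ h y = y) (hyK : y ∉ K) : False := by
  classical
  obtain ⟨u, hu1, hu⟩ := hK.prop
  -- coprimality for `K`
  have hcK : Nat.Coprime (Nat.card K) (Nat.card M) :=
    Nat.Coprime.coprime_dvd_left (Subgroup.card_subgroup_dvd_card K) hcQ
  -- the maximality consequence
  have hmax : ∀ K' : Subgroup Q, K ≤ K' → ∀ m, m ≠ 1 → cM ρ K' m → K' ≤ K := by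
    intro K' hle m hm hcm
    exact hK.le_of_ge ⟨m, hm, hcm⟩ hle
  set S := stabK ψ K with hS
  -- F4
  have hF4 : ∀ (K' : Subgroup Q), Nat.card K' = Nat.card K → K' ≠ K → ∀ m, cM ρ K' m →
      trK ρ K m = 1 := by
    intro K' hc hne m hm
    by_contra hne1
    have h1 : cM ρ K (trK ρ K m) := trK_fixed ρ K m
    have h2 : cM ρ K' (trK ρ K m) := by
      intro k' hk'
      rw [trK_apply, map_prod]
      apply Finset.prod_congr rfl
      intro k _
      rw [smq, mul_comm, ← smq, hm k' hk']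
    have h3 : cM ρ (K ⊔ K') (trK ρ K m) := by
      rw [cM_iff]
      exact sup_le h1 h2
    have h4 := hmax _ le_sup_left _ hne1 h3
    have h5 : K' ≤ K := le_trans le_sup_right h4
    exact hne (Subgroup.eq_of_le_of_card_ge h5 (by rw [hc]))
  -- card of map
  have hcardmap : ∀ a : A, Nat.card (K.map (ψ a : Q →* Q)) = Nat.card K := by
    intro a
    exact Subgroup.card_map_of_injective (ψ a).injective
  have hmapS : ∀ a : A, a ∉ S → K.map (ψ a : Q →* Q) ≠ K := by
    intro a ha heq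
    apply ha
    -- the map is an equality, hence `a ∈ S`
    intro x
    constructor
    · intro hx
      have : ψ a x ∈ K.map (ψ a : Q →* Q) := by rw [heq]; exact hx
      obtain ⟨k, hk, hk'⟩ := this
      have : k = x := (ψ a).injective hk'
      rwa [← this]
    · intro hx
      have : ψ a x ∈ K.map (ψ a : Q →* Q) := ⟨x, hx, rfl⟩
      rwa [heq] at this
  -- F5
  have hF5 : ∀ a, a ∉ S → ∀ w, cM ρ K w → trK ρ K (σ a w) = 1 := by
    intro a ha w hw
    exact hF4 _ (hcardmap a) (hmapS a ha) _ (cM_map σ ψ ρ hcomp hw a)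
  -- F6
  have hF6 : ∀ a, a ∈ S → ∀ w, cM ρ K w → cM ρ K (σ a w) := by
    intro a ha w hw k hk
    have h0 : ψ a (ψ a⁻¹ k) ∈ K := by
      have : ψ a (ψ a⁻¹ k) = k := by
        rw [← MulAut.mul_apply, ← map_mul]; simp
      rw [this]; exact hk
    have h1 : ψ a⁻¹ k ∈ K := (ha _).1 h0
    have h2 := hcomp a (ψ a⁻¹ k) w
    rw [hw _ h1] at h2
    have h3 : ψ a (ψ a⁻¹ k) = k := by
      rw [← MulAut.mul_apply, ← map_mul]; simp
    rw [h3] at h2
    exact h2.symm
  -- C1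
  have hC1 : ∀ w, cM ρ K w → pr (E ⊓ S) (fun e => σ e w) = 1 := by
    intro w hw
    have h0 := norm_eq_one σ E hEfix w
    have h1 : trK ρ K (pr E (fun e => σ e w)) = 1 := by rw [h0, map_one]
    rw [map_pr] at h1
    rw [pr_inf E S _ (fun e _ he => hF5 e he w hw)] at h1
    have h2 : ∀ e ∈ E ⊓ S, trK ρ K (σ e w) = (σ e w) ^ Nat.card K := by
      intro e he
      exact trK_of_fixed ρ K (hF6 e (Subgroup.mem_inf.mp he).2 w hw)
    rw [pr_congr _ h2, pr_pow] at h1
    exact pow_injective_of_coprime hcK (by rw [h1, one_pow])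
  -- C2
  have hC2 : ∀ e ∈ E ⊓ S, ∀ w, cM ρ K w → pr H (fun h => σ (e * h * e⁻¹) w) = 1 := by
    intro e he w hw
    set z := ψ e y with hz
    have hzK : z ∉ K := fun h => hyK ((((Subgroup.mem_inf.mp he).2 : e ∈ stabK ψ K) y).1 h)
    -- the subgroup of fixed vectors
    let U : Subgroup M :=
      { carrier := {x | cM ρ K x}
        one_mem' := by intro k _; simp
        mul_mem' := by
          intro a b ha hb k hk
          rw [map_mul, ha k hk, hb k hk]
        inv_mem' := by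
          intro a ha k hk
          rw [map_inv, ha k hk] }
    have hUz : ∀ x ∈ U, ρ z x ∈ U := by
      intro x hx k hk
      rw [smq, mul_comm, ← smq, hx k hk]
    let θ : U → U := fun x => ⟨ρ z x * (x : M)⁻¹, mul_mem (hUz x x.2) (inv_mem x.2)⟩
    have hθ : Function.Injective θ := by
      intro x₁ x₂ h12
      have h1 : ρ z (x₁ : M) * (x₁ : M)⁻¹ = ρ z (x₂ : M) * (x₂ : M)⁻¹ := congrArg Subtype.val h12
      by_contra hne
      have hne' : (x₁ : M) * (x₂ : M)⁻¹ ≠ 1 := by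
        intro h0
        apply hne
        apply Subtype.ext
        exact mul_inv_eq_one.mp h0
      have hfix : ρ z ((x₁ : M) * (x₂ : M)⁻¹) = (x₁ : M) * (x₂ : M)⁻¹ := by
        rw [map_mul, map_inv]
        have : ρ z (x₁ : M) = ρ z (x₂ : M) * (x₂ : M)⁻¹ * x₁ := by
          rw [← h1]; group
        rw [this]
        rw [mul_comm (ρ z (x₂ : M)) ((x₂ : M)⁻¹)]
        simp only [mul_inv_rev, mul_assoc, mul_inv_cancel_comm]
        rw [mul_comm (x₁ : M)]
        simp [mul_assoc, mul_comm, mul_left_comm]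
      have hcm : cM ρ (K ⊔ Subgroup.zpowers z) ((x₁ : M) * (x₂ : M)⁻¹) := by
        rw [cM_iff]
        apply sup_le
        · exact mul_mem x₁.2 (inv_mem x₂.2)
        · rw [Subgroup.zpowers_le]
          exact hfix
      have h5 := hmax _ le_sup_left _ hne' hcm
      exact hzK (h5 (Subgroup.mem_sup_right (Subgroup.mem_zpowers z)))
    have hθs : Function.Surjective θ := (Finite.injective_iff_bijective.mp hθ).2
    obtain ⟨x, hx⟩ := hθs ⟨w, hw⟩
    have hwx : w = ρ z (x : M) * (x : M)⁻¹ := (congrArg Subtype.val hx).symm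
    set x₁ := σ e⁻¹ (x : M) with hx₁
    have hxx : (x : M) = σ e x₁ := by
      rw [hx₁, sm]; simp
    have hterm1 : ∀ h ∈ H, σ (e * h * e⁻¹) (ρ z (x : M)) = σ e (ρ y (σ h x₁)) := by
      intro h hh
      have h1 : ρ z (x : M) = σ e (ρ y x₁) := by
        rw [hcomp, ← hz, ← hxx]
      rw [h1, sm]
      have h2 : σ h (ρ y x₁) = ρ y (σ h x₁) := by
        rw [hcomp, hy h hh]
      rw [← h2, sm]
      congr 2
      group
    have hterm2 : ∀ h ∈ H, σ (e * h * e⁻¹) (x : M) = σ e (σ h x₁) := by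
      intro h hh
      calc σ (e * h * e⁻¹) (x : M) = σ (e * h * e⁻¹) (σ e x₁) := by rw [← hxx]
        _ = σ (e * h) x₁ := by
          rw [sm]
          congr 2
          group
        _ = σ e (σ h x₁) := (sm σ e h x₁).symm
    have h1 : pr H (fun h => σ (e * h * e⁻¹) w)
        = pr H (fun h => σ e (ρ y (σ h x₁))) * (pr H (fun h => σ e (σ h x₁)))⁻¹ := by
      rw [← pr_inv, ← pr_mul]
      apply pr_congr
      intro h hh
      rw [hwx, map_mul, map_inv, hterm1 h hh, hterm2 h hh]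
    have h2 : pr H (fun h => σ e (ρ y (σ h x₁))) = σ e (pr H (fun h => σ h x₁)) := by
      have h3 := map_pr (ρ y) H (fun h => σ h x₁)
      have h4 : ρ y (pr H (fun h => σ h x₁)) = pr H (fun h => σ h x₁) :=
        hY y hy _ (fun h hh => norm_fixed σ H x₁ h hh)
      rw [h4] at h3
      calc pr H (fun h => σ e (ρ y (σ h x₁))) = σ e (pr H (fun h => ρ y (σ h x₁))) :=
            (map_pr (σ e) H _).symm
        _ = σ e (pr H (fun h => σ h x₁)) := by rw [← h3]
    rw [h1, h2, ← map_pr]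
    simp
  -- C3
  have h0 : pr (E ⊓ S) (fun e => pr H (fun h => σ (e * h * e⁻¹) u)) = 1 := by
    rw [pr_congr _ (fun e he => hC2 e he u hu), pr_const, one_pow]
  have h1 : pr (E ⊓ S) (fun e => pr (H ⊓ S) (fun h => (σ (e * h * e⁻¹) u) ^ Nat.card K)) = 1 := by
    have h2 : trK ρ K (pr (E ⊓ S) (fun e => pr H (fun h => σ (e * h * e⁻¹) u))) = 1 := by
      rw [h0, map_one]
    rw [map_pr] at h2
    rw [← h2]
    apply pr_congr
    intro e he
    rw [map_pr, pr_inf H S]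
    · apply pr_congr
      intro h hh
      rw [trK_of_fixed ρ K]
      apply hF6 _ _ u hu
      have heS : e ∈ S := (Subgroup.mem_inf.mp he).2
      have hhS : h ∈ S := (Subgroup.mem_inf.mp hh).2
      exact mul_mem (mul_mem heS hhS) (inv_mem heS)
    · intro h _ hhS
      apply hF5 _ _ u hu
      intro hmem
      apply hhS
      have heS : e ∈ S := (Subgroup.mem_inf.mp he).2
      have h3 : h = e⁻¹ * (e * h * e⁻¹) * e := by group
      rw [h3]
      exact mul_mem (mul_mem (inv_mem heS) hmem) heS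
  have h2 : (pr (E ⊓ S) (fun e => pr (H ⊓ S) (fun h => σ (e * h * e⁻¹) u))) ^ Nat.card K = 1 := by
    rw [← pr_pow, ← h1]
    apply pr_congr
    intro e _
    rw [pr_pow]
  have h3 : pr (E ⊓ S) (fun e => pr (H ⊓ S) (fun h => σ (e * h * e⁻¹) u)) = 1 :=
    pow_injective_of_coprime hcK (by rw [h2, one_pow])
  rw [pr_comm] at h3
  have h4 := core σ (E ⊓ S) (H ⊓ S)
    (fun h hh e he => Subgroup.mem_inf.mpr ⟨hEH h (Subgroup.mem_inf.mp hh).1 e (Subgroup.mem_inf.mp he).1,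
      mul_mem (mul_mem (Subgroup.mem_inf.mp hh).2 (Subgroup.mem_inf.mp he).2) (inv_mem (Subgroup.mem_inf.mp hh).2)⟩)
    (fun h hh hne e he => hfpf h (Subgroup.mem_inf.mp hh).1 hne e (Subgroup.mem_inf.mp he).1)
    {w | cM ρ K w} (fun h hh w hw => hF6 h (Subgroup.mem_inf.mp hh).2 w hw)
    (fun w hw => hC1 w hw) u hu
  rw [h3] at h4
  have hcES : Nat.Coprime (Nat.card (E ⊓ S : Subgroup A)) (Nat.card M) :=
    Nat.Coprime.coprime_dvd_left (Subgroup.card_dvd_of_le inf_le_left) hcE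
  exact hu1 (pow_injective_of_coprime hcES (by rw [← h4, one_pow]))

theorem final_core (hcomp : ∀ a y m, σ a (ρ y m) = ρ (ψ a y) (σ a m))
    (E H : Subgroup A) (hEH : ∀ h ∈ H, ∀ e ∈ E, h * e * h⁻¹ ∈ E)
    (hfpf : ∀ h ∈ H, h ≠ 1 → ∀ e ∈ E, h * e * h⁻¹ = e → e = 1)
    (hEfix : ∀ m : M, (∀ e ∈ E, σ e m = m) → m = 1)
    (hcE : Nat.Coprime (Nat.card E) (Nat.card M)) (hcQ : Nat.Coprime (Nat.card Q) (Nat.card M))
    (hY : ∀ y, (∀ h ∈ H, ψ h y = y) → ∀ v, (∀ h ∈ H, σ h v = v) → ρ y v = v)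
    (hgen : ∀ K : Subgroup Q, K ≠ ⊤ → ∃ a : A, ∃ y : Q, (∀ h ∈ H, ψ h y = y) ∧ ψ a y ∉ K)
    (hQfix : ∀ m : M, (∀ y, ρ y m = m) → m = 1) (m : M) : m = 1 := by
  by_contra hm
  have hne : (fam ρ).Nonempty := ⟨⊥, m, hm, by
    intro k hk
    rw [Subgroup.mem_bot] at hk
    simp [hk]⟩
  obtain ⟨K, hK⟩ := (Set.toFinite (fam ρ)).exists_maximal hne
  have hKtop : K ≠ ⊤ := by
    rintro rfl
    obtain ⟨v, hv1, hv⟩ := hK.prop
    exact hv1 (hQfix v (fun y => hv y (Subgroup.mem_top y)))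
  obtain ⟨a, y, hy, hya⟩ := hgen K hKtop
  -- translate `K` by `a⁻¹`
  have hinv1 : ∀ x : Q, ψ a (ψ a⁻¹ x) = x := by
    intro x
    rw [← MulAut.mul_apply, ← map_mul]; simp
  have hinv2 : ∀ x : Q, ψ a⁻¹ (ψ a x) = x := by
    intro x
    rw [← MulAut.mul_apply, ← map_mul]; simp
  have hcardmap : ∀ (b : A) (L : Subgroup Q), L.map (ψ b : Q →* Q) ∈ fam ρ ↔ L ∈ fam ρ := by
    have hone : ∀ (b : A) (L : Subgroup Q), L ∈ fam ρ → L.map (ψ b : Q →* Q) ∈ fam ρ := by
      rintro b L ⟨v, hv1, hv⟩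
      refine ⟨σ b v, ?_, cM_map σ ψ ρ hcomp hv b⟩
      intro h0
      apply hv1
      have := (σ b).injective (h0.trans (map_one (σ b)).symm)
      exact this
    intro b L
    refine ⟨fun h => ?_, hone b L⟩
    have h1 := hone b⁻¹ _ h
    have h2 : (L.map (ψ b : Q →* Q)).map (ψ b⁻¹ : Q →* Q) = L := by
      ext x
      constructor
      · rintro ⟨_, ⟨z, hz, rfl⟩, rfl⟩
        have : ψ b⁻¹ (ψ b z) = z := by
          rw [← MulAut.mul_apply, ← map_mul]; simp
        change ψ b⁻¹ (ψ b z) ∈ L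
        rwa [this]
      · intro hx
        refine ⟨ψ b x, ⟨x, hx, rfl⟩, ?_⟩
        change ψ b⁻¹ (ψ b x) = x
        rw [← MulAut.mul_apply, ← map_mul]; simp
    rwa [h2] at h1
  have hK' : Maximal (· ∈ fam ρ) (K.map (ψ a⁻¹ : Q →* Q)) := by
    refine ⟨(hcardmap _ _).2 hK.prop, ?_⟩
    intro L hL hle
    have h1 : K ≤ L.map (ψ a : Q →* Q) := by
      intro x hx
      refine ⟨ψ a⁻¹ x, hle ⟨x, hx, rfl⟩, ?_⟩
      exact hinv1 x
    have h2 := hK.le_of_ge ((hcardmap a L).2 hL) h1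
    intro x hx
    refine ⟨ψ a x, h2 ⟨x, hx, rfl⟩, ?_⟩
    exact hinv2 x
  refine final_step σ ψ ρ hcomp E H hEH hfpf hEfix hcE hcQ hY _ hK' y hy ?_
  rintro ⟨k, hk, hk'⟩
  apply hya
  have : k = ψ a y := by
    have h3 : ψ a⁻¹ k = y := hk'
    rw [← h3, hinv1]
  rwa [← this]

end Final

section Coho

variable {A : Type*} [Group A] [Fintype A] {M : Type*} [CommGroup M] [Finite M]
variable (σ : A →* MulAut M)

/-- A subgroup `E` normalized by `H`, with `H` acting freely on `E ∖ {1}`, and no fixed points of `E`: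
the identity of `M` is an `H`-trace. -/
theorem exists_trace (E H : Subgroup A) (hEH : ∀ h ∈ H, ∀ e ∈ E, h * e * h⁻¹ ∈ E)
    (hfpf : ∀ h ∈ H, h ≠ 1 → ∀ e ∈ E, h * e * h⁻¹ = e → e = 1)
    (hfix : ∀ m : M, (∀ e ∈ E, σ e m = m) → m = 1) :
    ∃ ψ₀ : M →* M, ∀ m, ∏ h : H, σ (h : A) (ψ₀ (σ (h : A)⁻¹ m)) = m := by
  classical
  let X := {x : E // x ≠ 1}
  letI act : MulAction H X :=
    { smul := fun h x => ⟨⟨(h : A) * (x.1 : A) * (h : A)⁻¹, hEH h h.2 x.1 x.1.2⟩, by
        intro h0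
        apply x.2
        have h1 : (h : A) * (x.1 : A) * (h : A)⁻¹ = 1 := congrArg Subtype.val h0
        apply Subtype.ext
        have h2 : (x.1 : A) = (h : A)⁻¹ * ((h : A) * (x.1 : A) * (h : A)⁻¹) * h := by group
        rw [h2, h1]
        simp⟩
      one_smul := by
        intro x
        apply Subtype.ext
        apply Subtype.ext
        change ((1 : H) : A) * (x.1 : A) * ((1 : H) : A)⁻¹ = x.1
        simp
      mul_smul := by
        intro a b x
        apply Subtype.ext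
        apply Subtype.ext
        change ((a * b : H) : A) * (x.1 : A) * ((a * b : H) : A)⁻¹
          = (a : A) * ((b : A) * (x.1 : A) * (b : A)⁻¹) * (a : A)⁻¹
        simp only [Subgroup.coe_mul]
        group }
  have hsmul : ∀ (h : H) (x : X), ((h • x : X).1 : A) = (h : A) * (x.1 : A) * (h : A)⁻¹ :=
    fun _ _ => rfl
  let Rep := Quotient (MulAction.orbitRel H X)
  let out : Rep → X := Quotient.out
  let Θ : H × Rep → X := fun p => p.1 • out p.2
  have hΘ : Function.Bijective Θ := by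
    constructor
    · rintro ⟨h₁, ω₁⟩ ⟨h₂, ω₂⟩ h12
      have h12' : h₁ • out ω₁ = h₂ • out ω₂ := h12
      have hω : ω₁ = ω₂ := by
        have h3 : (Quotient.mk'' (out ω₁) : Rep) = Quotient.mk'' (out ω₂) := by
          rw [Quotient.eq'']
          refine ⟨h₁⁻¹ * h₂, ?_⟩
          change (h₁⁻¹ * h₂) • out ω₂ = out ω₁
          rw [mul_smul, ← h12', inv_smul_smul]
        have h4 : ∀ ω : Rep, (Quotient.mk'' (out ω) : Rep) = ω := fun ω => Quotient.out_eq' ω
        rw [h4, h4] at h3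
        exact h3
      subst hω
      have h5 : (h₁⁻¹ * h₂) • out ω₁ = out ω₁ := by
        rw [mul_smul, ← h12', inv_smul_smul]
      have h6 : h₁⁻¹ * h₂ = 1 := by
        by_contra hne
        have h7 : (((h₁⁻¹ * h₂ : H) : A)) * ((out ω₁).1 : A) * ((h₁⁻¹ * h₂ : H) : A)⁻¹
            = ((out ω₁).1 : A) := congrArg (fun x : X => (x.1 : A)) h5
        have h8 := hfpf _ (h₁⁻¹ * h₂).2 (fun h0 => hne (Subtype.ext h0)) _ (out ω₁).1.2 h7
        exact (out ω₁).2 (Subtype.ext h8)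
      have h9 : h₁ = h₂ := by
        have := congrArg (fun x => h₁ * x) h6
        simpa using this.symm
      rw [h9]
    · intro x
      have h1 : (Quotient.mk'' (out (Quotient.mk'' x)) : Rep) = Quotient.mk'' x :=
        Quotient.out_eq' _
      rw [Quotient.eq''] at h1
      obtain ⟨h, hh⟩ := h1
      refine ⟨(h⁻¹, Quotient.mk'' x), ?_⟩
      change h⁻¹ • out (Quotient.mk'' x) = x
      have hh' : h • x = out (Quotient.mk'' x) := hh
      rw [← hh', inv_smul_smul]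
  let ψ₀ : M →* M := ∏ ω : Rep, (invMonoidHom.comp ((σ ((out ω).1 : A) : MulAut M) : M →* M))
  have hψ₀ : ∀ m, ψ₀ m = ∏ ω : Rep, (σ ((out ω).1 : A) m)⁻¹ := by
    intro m
    simp [ψ₀]
  refine ⟨ψ₀, fun m => ?_⟩
  have h1 : ∀ h : H, σ (h : A) (ψ₀ (σ (h : A)⁻¹ m))
      = ∏ ω : Rep, (σ ((Θ (h, ω)).1 : A) m)⁻¹ := by
    intro h
    rw [hψ₀, map_prod]
    apply Finset.prod_congr rfl
    intro ω _
    rw [map_inv, sm, sm, inv_inj]
    rfl
  simp only [h1]
  rw [← Finset.prod_product']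
  have h2 : ∏ p ∈ (Finset.univ : Finset H) ×ˢ (Finset.univ : Finset Rep), (σ ((Θ p).1 : A) m)⁻¹
      = ∏ x : X, (σ (x.1 : A) m)⁻¹ := by
    rw [Finset.univ_product_univ]
    exact Fintype.prod_bijective Θ hΘ _ _ (fun _ => rfl)
  rw [h2, Finset.prod_inv_distrib]
  have h3 : ∏ x : X, σ (x.1 : A) m = (∏ e ∈ (Finset.univ : Finset E).erase 1, σ (e : A) m) := by
    rw [Finset.prod_subtype ((Finset.univ : Finset E).erase 1) (p := fun x : E => x ≠ 1) (by simp)]
  have h4 := norm_eq_one σ E hfix m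
  simp only [pr] at h4
  rw [← Finset.mul_prod_erase (Finset.univ : Finset E) _ (Finset.mem_univ (1 : E))] at h4
  simp only [OneMemClass.coe_one, map_one, MulAut.one_apply] at h4
  rw [h3]
  have h5 : (∏ e ∈ (Finset.univ : Finset E).erase 1, σ (e : A) m) = m⁻¹ :=
    eq_inv_of_mul_eq_one_right h4
  rw [h5, inv_inv]

/-- Vanishing of `H¹(H, M)`. -/
theorem cocycle_trivial (E H : Subgroup A) (hEH : ∀ h ∈ H, ∀ e ∈ E, h * e * h⁻¹ ∈ E)
    (hfpf : ∀ h ∈ H, h ≠ 1 → ∀ e ∈ E, h * e * h⁻¹ = e → e = 1)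
    (hfix : ∀ m : M, (∀ e ∈ E, σ e m = m) → m = 1)
    (γ : H → M) (hγ : ∀ h k : H, γ (h * k) = γ h * σ (h : A) (γ k)) :
    ∃ u : M, ∀ h : H, γ h = u * (σ (h : A) u)⁻¹ := by
  classical
  obtain ⟨ψ₀, hψ₀⟩ := exists_trace σ E H hEH hfpf hfix
  let u : M := ∏ k : H, σ (k : A) (ψ₀ (σ (k : A)⁻¹ (γ k)))
  refine ⟨u, fun h => ?_⟩
  have h1 : σ (h : A) u = u * (γ h)⁻¹ := by
    have h2 : σ (h : A) u = ∏ k : H, σ ((h * k : H) : A) (ψ₀ (σ (k : A)⁻¹ (γ k))) := by
      simp only [u, map_prod]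
      apply Finset.prod_congr rfl
      intro k _
      rw [sm]
      rfl
    have h3 : ∏ k : H, σ ((h * k : H) : A) (ψ₀ (σ (k : A)⁻¹ (γ k)))
        = ∏ l : H, σ (l : A) (ψ₀ (σ (l : A)⁻¹ (σ (h : A) (γ (h⁻¹ * l))))) := by
      refine Fintype.prod_equiv (Equiv.mulLeft h) _ _ (fun k => ?_)
      simp only [Equiv.coe_mulLeft, inv_mul_cancel_left]
      congr 2
      rw [sm]
      congr 2
      simp
    have h4 : ∀ l : H, σ (h : A) (γ (h⁻¹ * l)) = (γ h)⁻¹ * γ l := by
      intro l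
      have h5 := hγ h (h⁻¹ * l)
      rw [mul_inv_cancel_left] at h5
      rw [h5]
      group
    have h6 : ∀ l : H, σ (l : A) (ψ₀ (σ (l : A)⁻¹ (σ (h : A) (γ (h⁻¹ * l)))))
        = σ (l : A) (ψ₀ (σ (l : A)⁻¹ (γ l))) * σ (l : A) (ψ₀ (σ (l : A)⁻¹ (γ h)⁻¹)) := by
      intro l
      rw [h4 l, map_mul, map_mul, map_mul, mul_comm]
    rw [h2, h3]
    simp only [h6]
    rw [Finset.prod_mul_distrib, hψ₀]
  rw [h1, mul_inv_rev, inv_inv, mul_comm (γ h), mul_inv_cancel_left]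

/-- Vanishing of `H¹` for coprime action. -/
theorem cocycle_coprime (E : Subgroup A) (hc : Nat.Coprime (Nat.card E) (Nat.card M))
    (γ : E → M) (hγ : ∀ h k : E, γ (h * k) = γ h * σ (h : A) (γ k)) :
    ∃ u : M, ∀ h : E, γ h = u * (σ (h : A) u)⁻¹ := by
  classical
  let w : M := ∏ x : E, γ x
  obtain ⟨u, hu⟩ := exists_pow_eq_of_coprime hc w
  refine ⟨u, fun e => ?_⟩
  have h1 : σ (e : A) w = ((γ e)⁻¹) ^ Nat.card E * w := by
    have h2 : σ (e : A) w = ∏ x : E, ((γ e)⁻¹ * γ (e * x)) := by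
      simp only [w, map_prod]
      apply Finset.prod_congr rfl
      intro x _
      rw [hγ]
      group
    rw [h2, Finset.prod_mul_distrib]
    have h3 : ∏ x : E, γ (e * x) = w :=
      Fintype.prod_equiv (Equiv.mulLeft e) _ _ (fun _ => rfl)
    rw [h3]
    simp [Finset.prod_const, Nat.card_eq_fintype_card]
  have h4 : (σ (e : A) u) ^ Nat.card E = (u * (γ e)⁻¹) ^ Nat.card E := by
    rw [← map_pow, hu, h1, mul_pow, hu, mul_comm]
  have h5 := pow_injective_of_coprime hc h4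
  rw [h5, mul_inv_rev, inv_inv, mul_comm (γ e), mul_inv_cancel_left]

end Coho

end Cfsg.Agent.Lib.FrobAut
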