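import Mathlib
import Cfsg.Agent.Lib.FrobAutA
import Cfsg.Agent.Lib.PCore

/-!
# Frobenius groups of automorphisms: group level tools.
-/

set_option autoImplicit false

open Cfsg Cfsg.Agent.Lib.PCore

namespace Cfsg.Agent.Lib.FrobAut

universe u

theorem nil_of_inj {X Y : Type*} [Group X] [Group Y] (f : X →* Y) (hf : Function.Injective f)
    (hY : Group.IsNilpotent Y) : Group.IsNilpotent X :=
  (Group.isNilpotent_congr (MonoidHom.ofInjective hf)).mpr inferInstance

section Basic

variable {A : Type*} [Group A] {G : Type*} [Group G]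

theorem act_inv_act (φ : A →* MulAut G) (a : A) (x : G) : φ a (φ a⁻¹ x) = x := by
  rw [← MulAut.mul_apply, ← map_mul]; simp

theorem act_act_inv (φ : A →* MulAut G) (a : A) (x : G) : φ a⁻¹ (φ a x) = x := by
  rw [← MulAut.mul_apply, ← map_mul]; simp

theorem act_mul (φ : A →* MulAut G) (a b : A) (x : G) : φ a (φ b x) = φ (a * b) x := by
  rw [map_mul]; rfl

/-- Fixed points. -/
def fixS (φ : A →* MulAut G) (D : Subgroup A) : Subgroup G where
  carrier := {g | ∀ d ∈ D, φ d g = g}
  one_mem' := by intro d _; simp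
  mul_mem' := by
    intro a b ha hb d hd
    rw [map_mul, ha d hd, hb d hd]
  inv_mem' := by
    intro a ha d hd
    rw [map_inv, ha d hd]

theorem mem_fixS {φ : A →* MulAut G} {D : Subgroup A} {g : G} :
    g ∈ fixS φ D ↔ ∀ d ∈ D, φ d g = g := Iff.rfl

/-- Invariant subgroups. -/
def Inv (φ : A →* MulAut G) (M : Subgroup G) : Prop := ∀ a, ∀ x ∈ M, φ a x ∈ M

theorem Inv.map_mem_iff {φ : A →* MulAut G} {M : Subgroup G} (h : Inv φ M) (a : A) (x : G) :
    φ a x ∈ M ↔ x ∈ M := by
  refine ⟨fun hx => ?_, h a x⟩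
  have := h a⁻¹ _ hx
  rwa [act_act_inv] at this

/-- Restriction to an invariant subgroup. -/
def res (φ : A →* MulAut G) (M : Subgroup G) (hM : Inv φ M) : A →* MulAut M where
  toFun a :=
    { toFun := fun x => ⟨φ a (x : G), hM a x x.2⟩
      invFun := fun x => ⟨φ a⁻¹ (x : G), hM a⁻¹ x x.2⟩
      left_inv := fun x => Subtype.ext (act_act_inv φ a x)
      right_inv := fun x => Subtype.ext (act_inv_act φ a x)
      map_mul' := fun x y => Subtype.ext (map_mul (φ a) (x : G) (y : G)) }
  map_one' := by
    ext x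
    simp
  map_mul' := by
    intro a b
    ext x
    simp [map_mul]

@[simp] theorem res_apply (φ : A →* MulAut G) (M : Subgroup G) (hM : Inv φ M) (a : A) (x : M) :
    ((res φ M hM a x : M) : G) = φ a x := rfl

/-- Action on a quotient by an invariant normal subgroup. -/
noncomputable def quo (φ : A →* MulAut G) (V : Subgroup G) [V.Normal] (hV : Inv φ V) :
    A →* MulAut (G ⧸ V) where
  toFun a := QuotientGroup.congr V V (φ a) (by
    ext x
    constructor
    · rintro ⟨y, hy, rfl⟩
      exact hV a y hy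
    · intro hx
      exact ⟨φ a⁻¹ x, hV a⁻¹ x hx, act_inv_act φ a x⟩)
  map_one' := by
    ext x
    induction x using QuotientGroup.induction_on with
    | H g => simp
  map_mul' := by
    intro a b
    ext x
    induction x using QuotientGroup.induction_on with
    | H g => simp [map_mul]

@[simp] theorem quo_mk (φ : A →* MulAut G) (V : Subgroup G) [V.Normal] (hV : Inv φ V) (a : A) (g : G) :
    quo φ V hV a (g : G ⧸ V) = (φ a g : G) := rfl

/-- A characteristic subgroup of an invariant subgroup is invariant. -/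
theorem inv_char_map {φ : A →* MulAut G} {M : Subgroup G} (hM : Inv φ M) (C : Subgroup M)
    (hC : C.Characteristic) : Inv φ (C.map M.subtype) := by
  rintro a _ ⟨x, hx, rfl⟩
  have h1 : (res φ M hM a x) ∈ C := by
    have := (Subgroup.characteristic_iff_map_eq.mp hC (res φ M hM a))
    rw [← this]
    exact ⟨x, hx, rfl⟩
  exact ⟨_, h1, rfl⟩

/-- A characteristic subgroup of a normal subgroup is normal. -/
theorem normal_char_map {M : Subgroup G} [hM : M.Normal] (C : Subgroup M)
    (hC : C.Characteristic) : (C.map M.subtype).Normal := by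
  constructor
  rintro _ ⟨x, hx, rfl⟩ g
  have h1 : (MulAut.conjNormal g x) ∈ C := by
    have := (Subgroup.characteristic_iff_map_eq.mp hC (MulAut.conjNormal g))
    rw [← this]
    exact ⟨x, hx, rfl⟩
  refine ⟨_, h1, ?_⟩
  simp [MulAut.conjNormal_apply]

end Basic

section Parts

variable {A : Type*} [Group A]

/-- `p`-part of a subgroup. -/
def partP (D : Subgroup A) (p : ℕ) : Subgroup A := (pCore p D).map D.subtype

/-- `p'`-part of a subgroup. -/
def partE (D : Subgroup A) (p : ℕ) : Subgroup A := (pPrimeCore p D).map D.subtype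

theorem partP_le (D : Subgroup A) (p : ℕ) : partP D p ≤ D := Subgroup.map_subtype_le _

theorem partE_le (D : Subgroup A) (p : ℕ) : partE D p ≤ D := Subgroup.map_subtype_le _

theorem isPGroup_partP [Finite A] (D : Subgroup A) (p : ℕ) [Fact p.Prime] : IsPGroup p (partP D p) :=
  (isPGroup_pCore p).map _

theorem coprime_partE [Finite A] (D : Subgroup A) (p : ℕ) : Nat.Coprime (Nat.card (partE D p)) p := by
  have h1 : Nat.card (partE D p) = Nat.card (pPrimeCore p D) :=
    Subgroup.card_map_of_injective D.subtype_injective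
  rw [h1]
  exact card_pPrimeCore_coprime p

theorem sup_parts_top [Finite A] (D : Subgroup A) (hD : Group.IsNilpotent D) (p : ℕ) [Fact p.Prime] :
    pPrimeCore p D ⊔ pCore p D = ⊤ := by
  apply eq_top_of_forall_sylow_le
  intro q _
  refine ⟨default, ?_⟩
  generalize (default : Sylow q D) = S
  have hS : (S : Subgroup D).Normal :=
    Sylow.normal_of_normalizerCondition Group.normalizerCondition_of_isNilpotent S
  by_cases hq : q = p
  · subst hq
    exact le_trans (le_pCore hS S.2) le_sup_right
  · refine le_trans (le_pPrimeCore hS ?_) le_sup_left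
    obtain ⟨n, hn⟩ := IsPGroup.iff_card.mp S.2
    rw [hn]
    apply Nat.Coprime.pow_left
    exact (Nat.coprime_primes (Fact.out) (Fact.out)).mpr hq

theorem le_parts [Finite A] (D : Subgroup A) (hD : Group.IsNilpotent D) (p : ℕ) [Fact p.Prime] :
    D ≤ partE D p ⊔ partP D p := by
  intro x hx
  have h1 : (⟨x, hx⟩ : D) ∈ pPrimeCore p D ⊔ pCore p D := by
    rw [sup_parts_top D hD p]; trivial
  have h2 : x ∈ (pPrimeCore p D ⊔ pCore p D).map D.subtype := ⟨_, h1, rfl⟩
  rwa [Subgroup.map_sup] at h2

/-- An element normalizing `D` normalizes its parts (general characteristic subgroup version). -/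
theorem conj_mem_char_map {D : Subgroup A} {a : A} (ha : ∀ x, a * x * a⁻¹ ∈ D ↔ x ∈ D)
    (C : Subgroup D) (hC : C.Characteristic) {x : A} (hx : x ∈ C.map D.subtype) :
    a * x * a⁻¹ ∈ C.map D.subtype := by
  obtain ⟨y, hy, rfl⟩ := hx
  let c : D ≃* D :=
    { toFun := fun y => ⟨a * y * a⁻¹, (ha _).2 y.2⟩
      invFun := fun y => ⟨a⁻¹ * y * a, by
        rw [← ha]
        have : a * (a⁻¹ * (y : A) * a) * a⁻¹ = y := by group
        rw [this]
        exact y.2⟩
      left_inv := fun y => Subtype.ext (by simp [mul_assoc])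
      right_inv := fun y => Subtype.ext (by simp [mul_assoc])
      map_mul' := fun y z => Subtype.ext (by simp [mul_assoc]) }
  have h1 : c y ∈ C := by
    have := Subgroup.characteristic_iff_map_eq.mp hC c
    rw [← this]
    exact ⟨y, hy, rfl⟩
  exact ⟨_, h1, rfl⟩

theorem conj_mem_partP {D : Subgroup A} {a : A} (ha : ∀ x, a * x * a⁻¹ ∈ D ↔ x ∈ D) (p : ℕ)
    {x : A} (hx : x ∈ partP D p) : a * x * a⁻¹ ∈ partP D p :=
  conj_mem_char_map ha _ inferInstance hx

theorem conj_mem_partE {D : Subgroup A} {a : A} (ha : ∀ x, a * x * a⁻¹ ∈ D ↔ x ∈ D) (p : ℕ)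
    {x : A} (hx : x ∈ partE D p) : a * x * a⁻¹ ∈ partE D p :=
  conj_mem_char_map ha _ inferInstance hx

theorem conj_iff_of_mem {D : Subgroup A} {a : A} (ha : a ∈ D) (x : A) :
    a * x * a⁻¹ ∈ D ↔ x ∈ D := by
  constructor
  · intro h
    have : x = a⁻¹ * (a * x * a⁻¹) * a := by group
    rw [this]
    exact mul_mem (mul_mem (inv_mem ha) h) ha
  · intro h
    exact mul_mem (mul_mem ha h) (inv_mem ha)

theorem conj_iff_of_normal {D : Subgroup A} [hD : D.Normal] (a : A) (x : A) :
    a * x * a⁻¹ ∈ D ↔ x ∈ D := by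
  constructor
  · intro h
    have : x = a⁻¹ * (a * x * a⁻¹) * (a⁻¹)⁻¹ := by group
    rw [this]
    exact hD.conj_mem _ h _
  · intro h
    exact hD.conj_mem _ h _

end Parts

section FP

variable {A : Type*} [Group A] {G : Type*} [Group G] [Finite G]

/-- A `p`-group acting on a nontrivial `p`-group has a nontrivial fixed point. -/
theorem exists_fixed_of_pGroup [Finite A] {p : ℕ} [Fact p.Prime] (φ : A →* MulAut G) (R : Subgroup A)
    (hR : IsPGroup p R) (P : Subgroup G) (hPq : IsPGroup p P) (hP : P ≠ ⊥)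
    (hinv : ∀ r ∈ R, ∀ x ∈ P, φ r x ∈ P) : ∃ x ∈ P, x ≠ 1 ∧ ∀ r ∈ R, φ r x = x := by
  letI act : MulAction R P :=
    { smul := fun r x => ⟨φ r x, hinv r r.2 x x.2⟩
      one_smul := fun x => Subtype.ext (by
        change φ ((1 : R) : A) (x : G) = x
        simp)
      mul_smul := fun a b x => Subtype.ext (by
        change φ ((a * b : R) : A) (x : G) = φ a (φ b x)
        rw [act_mul]
        rfl) }
  have hdvd : p ∣ Nat.card P := by
    haveI : Nontrivial P := (Subgroup.nontrivial_iff_ne_bot P).mpr hP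
    obtain ⟨n, hn⟩ := IsPGroup.iff_card.mp hPq
    have h1 : Nat.card P ≠ 1 := Finite.one_lt_card.ne'
    rw [hn] at h1 ⊢
    have : n ≠ 0 := by
      rintro rfl
      simp at h1
    exact dvd_pow_self p this
  have hone : (1 : P) ∈ MulAction.fixedPoints R P := by
    intro r
    apply Subtype.ext
    change φ (r : A) ((1 : P) : G) = ((1 : P) : G)
    simp
  obtain ⟨b, hb, hne⟩ := hR.exists_fixed_point_of_prime_dvd_card_of_fixed_point P hdvd hone
  refine ⟨b, b.2, ?_, ?_⟩
  · intro h0
    exact hne (Subtype.ext h0.symm)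
  · intro r hr
    exact congrArg Subtype.val (hb ⟨r, hr⟩)

/-- Nilpotent groups: a `q`-subgroup lies in the `q`-core. -/
theorem le_pCore_of_nilpotent {X : Type*} [Group X] [Finite X] (hX : Group.IsNilpotent X) {q : ℕ}
    [Fact q.Prime] {T : Subgroup X} (hT : IsPGroup q T) : T ≤ pCore q X := by
  obtain ⟨S, hS⟩ := hT.exists_le_sylow
  have hn : (S : Subgroup X).Normal :=
    Sylow.normal_of_normalizerCondition Group.normalizerCondition_of_isNilpotent S
  exact le_trans hS (le_pCore hn S.2)

/-- Nilpotent groups: elements of coprime orders commute. -/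
theorem commute_of_coprime_of_nilpotent {X : Type*} [Group X] [Finite X] (hX : Group.IsNilpotent X)
    {p : ℕ} [Fact p.Prime] {v z : X} (hv : IsPGroup p (Subgroup.zpowers v))
    (hz : Nat.Coprime (orderOf z) p) : Commute v z := by
  have h1 : v ∈ pCore p X := le_pCore_of_nilpotent hX hv (Subgroup.mem_zpowers v)
  have h2 : z ∈ pPrimeCore p X := by
    -- the quotient by the `p'`-core is a `p`-group
    have htop : pPrimeCore p X ⊔ pCore p X = ⊤ := by
      apply eq_top_of_forall_sylow_le
      intro q _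
      refine ⟨default, ?_⟩
      generalize (default : Sylow q X) = S
      have hS : (S : Subgroup X).Normal :=
        Sylow.normal_of_normalizerCondition Group.normalizerCondition_of_isNilpotent S
      by_cases hq : q = p
      · subst hq
        exact le_trans (le_pCore hS S.2) le_sup_right
      · refine le_trans (le_pPrimeCore hS ?_) le_sup_left
        obtain ⟨n, hn⟩ := IsPGroup.iff_card.mp S.2
        rw [hn]
        apply Nat.Coprime.pow_left
        exact (Nat.coprime_primes (Fact.out) (Fact.out)).mpr hq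
    have hz' : z ∈ pPrimeCore p X ⊔ pCore p X := by rw [htop]; trivial
    rw [← SetLike.mem_coe, Subgroup.mul_normal, Set.mem_mul] at hz'
    obtain ⟨e, he, x, hx, rfl⟩ := hz'
    -- `x` commutes with `e`, so `x` is a power of `e * x`
    have hcomm : Commute e x := by
      have hd : Disjoint (pPrimeCore p X) (pCore p X) := by
        apply Subgroup.disjoint_of_coprime_natCard
        obtain ⟨n, hn⟩ := IsPGroup.iff_card.mp (isPGroup_pCore (G := X) p)
        rw [hn]
        exact Nat.Coprime.pow_right _ (card_pPrimeCore_coprime p)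
      exact Subgroup.commute_of_normal_of_disjoint _ _ inferInstance inferInstance hd e x he hx
    have hxord : x = 1 := by
      have h3 : x ^ orderOf (e * x) = e⁻¹ ^ orderOf (e * x) := by
        have h4 : (e * x) ^ orderOf (e * x) = 1 := pow_orderOf_eq_one _
        rw [hcomm.mul_pow] at h4
        rw [inv_pow]
        exact eq_inv_of_mul_eq_one_right h4
      have h5 : x ^ orderOf (e * x) ∈ pPrimeCore p X := by
        rw [h3]
        exact pow_mem (inv_mem he) _
      have h6 : x ^ orderOf (e * x) ∈ pCore p X := pow_mem hx _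
      have hd : Disjoint (pPrimeCore p X) (pCore p X) := by
        apply Subgroup.disjoint_of_coprime_natCard
        obtain ⟨n, hn⟩ := IsPGroup.iff_card.mp (isPGroup_pCore (G := X) p)
        rw [hn]
        exact Nat.Coprime.pow_right _ (card_pPrimeCore_coprime p)
      have h7 := Subgroup.disjoint_def.mp hd h5 h6
      -- order of `x` is a power of `p` and divides a number prime to `p`
      have h8 : orderOf x ∣ orderOf (e * x) := orderOf_dvd_of_pow_eq_one h7
      obtain ⟨k, hk⟩ := (isPGroup_pCore (G := X) p) ⟨x, hx⟩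
      have h9 : x ^ p ^ k = 1 := congrArg Subtype.val hk
      have h10 : orderOf x ∣ p ^ k := orderOf_dvd_of_pow_eq_one h9
      have h11 : Nat.Coprime (orderOf (e * x)) (p ^ k) := Nat.Coprime.pow_right _ hz
      exact orderOf_eq_one_iff.mp (Nat.eq_one_of_dvd_coprimes h11 h8 h10)
    rw [hxord, mul_one]
    exact he
  have hd : Disjoint (pCore p X) (pPrimeCore p X) := by
    apply Subgroup.disjoint_of_coprime_natCard
    obtain ⟨n, hn⟩ := IsPGroup.iff_card.mp (isPGroup_pCore (G := X) p)
    rw [hn]
    exact Nat.Coprime.pow_left _ (card_pPrimeCore_coprime p).symm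
  exact Subgroup.commute_of_normal_of_disjoint _ _ inferInstance inferInstance hd v z h1 h2

end FP

section Fix

variable {A T W : Type*} [Group A] [Group T] [Finite T] [Finite W] [Finite A]
variable (ψ : A →* MulAut T) [MulAction T W] [MulAction A W]

/-- Fixed points of a nilpotent group acting coprimely on a transitive pair. -/
theorem fixG (hcomp : ∀ (a : A) (t : T) (w : W), a • (t • w) = (ψ a t) • (a • w))
    (T₀ : Subgroup T) (W₀ : Set W) (hTW : ∀ t ∈ T₀, ∀ w ∈ W₀, t • w ∈ W₀)
    (htr : ∀ w₁ ∈ W₀, ∀ w₂ ∈ W₀, ∃ t ∈ T₀, t • w₁ = w₂) (hne : W₀.Nonempty) :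
    ∀ (n : ℕ) (D : Subgroup A), Nat.card D = n → Group.IsNilpotent D →
      (∀ d ∈ D, ∀ t ∈ T₀, ψ d t ∈ T₀) → (∀ d ∈ D, ∀ w ∈ W₀, d • w ∈ W₀) →
      Nat.Coprime (Nat.card D) (Nat.card T₀) →
      (∃ w ∈ W₀, ∀ d ∈ D, d • w = w) ∧
      (∀ w₁ ∈ W₀, ∀ w₂ ∈ W₀, (∀ d ∈ D, d • w₁ = w₁) → (∀ d ∈ D, d • w₂ = w₂) →
        ∃ c ∈ T₀, (∀ d ∈ D, ψ d c = c) ∧ c • w₁ = w₂) := by
  intro n
  induction n using Nat.strong_induction_on with
  | _ n ih =>
    intro D hn hnil hDT hDW hc
    by_cases hD1 : Nat.card D = 1
    · have hbot : ∀ d ∈ D, d = 1 := by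
        intro d hd
        have := (Nat.card_eq_one_iff_unique.mp hD1).1
        have h2 : (⟨d, hd⟩ : D) = 1 := Subsingleton.elim _ _
        exact congrArg Subtype.val h2
      constructor
      · obtain ⟨w, hw⟩ := hne
        refine ⟨w, hw, fun d hd => ?_⟩
        rw [hbot d hd, one_smul]
      · intro w₁ h₁ w₂ h₂ _ _
        obtain ⟨t, ht, htw⟩ := htr w₁ h₁ w₂ h₂
        refine ⟨t, ht, fun d hd => ?_, htw⟩
        rw [hbot d hd]
        simp
    · obtain ⟨s, hs, hsD⟩ := Nat.exists_prime_and_dvd hD1
      haveI : Fact s.Prime := ⟨hs⟩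
      set E := partE D s with hE
      set P := partP D s with hP
      have hEle : E ≤ D := partE_le D s
      have hPle : P ≤ D := partP_le D s
      have hPp : IsPGroup s P := isPGroup_partP D s
      have hEs : Nat.Coprime (Nat.card E) s := coprime_partE D s
      have hDle : D ≤ E ⊔ P := le_parts D hnil s
      have hcardE : Nat.card E < n := by
        rw [← hn]
        have h1 : Nat.card E ∣ Nat.card D := Subgroup.card_dvd_of_le hEle
        apply lt_of_le_of_ne (Nat.le_of_dvd Nat.card_pos h1)
        intro h2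
        rw [h2] at hEs
        have := Nat.Coprime.eq_one_of_dvd hEs.symm hsD
        exact hs.one_lt.ne' this
      have hEnil : Group.IsNilpotent E :=
        nil_of_inj (Subgroup.inclusion hEle) (Subgroup.inclusion_injective hEle) hnil
      have hcE : Nat.Coprime (Nat.card E) (Nat.card T₀) :=
        Nat.Coprime.coprime_dvd_left (Subgroup.card_dvd_of_le hEle) hc
      obtain ⟨⟨w₀, hw₀, hw₀E⟩, htr₁⟩ := ih _ hcardE E rfl hEnil (fun d hd => hDT d (hEle hd))
        (fun d hd => hDW d (hEle hd)) hcE
      -- the stage one data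
      let T₁ : Subgroup T := T₀ ⊓ Cfsg.Agent.Lib.FrobAut.fixS ψ E
      let W₁ : Set W := {w | w ∈ W₀ ∧ ∀ e ∈ E, e • w = w}
      have hcT₁ : ¬ s ∣ Nat.card T₁ := by
        intro h1
        have h2 : Nat.card T₁ ∣ Nat.card T₀ := Subgroup.card_dvd_of_le inf_le_left
        have h3 : s ∣ Nat.gcd (Nat.card D) (Nat.card T₀) := Nat.dvd_gcd hsD (h1.trans h2)
        rw [hc.gcd_eq_one] at h3
        exact hs.one_lt.ne' (Nat.dvd_one.mp h3)
      -- `P` normalizes `E`
      have hPE : ∀ p ∈ P, ∀ e ∈ E, p⁻¹ * e * p ∈ E := by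
        intro p hp e he
        have h1 := conj_mem_partE (conj_iff_of_mem (D := D) (inv_mem (hPle hp))) s he
        simpa using h1
      have hPW₁ : ∀ p ∈ P, ∀ w ∈ W₁, p • w ∈ W₁ := by
        intro p hp w hw
        refine ⟨hDW p (hPle hp) w hw.1, fun e he => ?_⟩
        have h1 : e • p • w = p • (p⁻¹ * e * p) • w := by
          simp only [smul_smul]
          congr 1
          group
        rw [h1, hw.2 _ (hPE p hp e he)]
      have hT₁W₁ : ∀ t ∈ T₁, ∀ w ∈ W₁, t • w ∈ W₁ := by
        intro t ht w hw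
        refine ⟨hTW t ht.1 w hw.1, fun e he => ?_⟩
        rw [hcomp, ht.2 e he, hw.2 e he]
      have hPT₁ : ∀ p ∈ P, ∀ t ∈ T₁, ψ p t ∈ T₁ := by
        intro p hp t ht
        refine ⟨hDT p (hPle hp) t ht.1, fun e he => ?_⟩
        have h1 : ψ e (ψ p t) = ψ p (ψ (p⁻¹ * e * p) t) := by
          rw [act_mul, act_mul]
          congr 2
          group
        rw [h1, ht.2 _ (hPE p hp e he)]
      have htrW₁ : ∀ w₁ ∈ W₁, ∀ w₂ ∈ W₁, ∃ t ∈ T₁, t • w₁ = w₂ := by
        intro w₁ h₁ w₂ h₂
        obtain ⟨c, hc₀, hcE', hcw⟩ := htr₁ w₁ h₁.1 w₂ h₂.1 h₁.2 h₂.2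
        exact ⟨c, ⟨hc₀, hcE'⟩, hcw⟩
      have hw₀W₁ : w₀ ∈ W₁ := ⟨hw₀, hw₀E⟩
      -- `D` fixed from `E` and `P` fixed
      have hDfix : ∀ w : W, (∀ e ∈ E, e • w = w) → (∀ p ∈ P, p • w = w) → ∀ d ∈ D, d • w = w := by
        intro w h1 h2 d hd
        have h3 : E ⊔ P ≤ MulAction.stabilizer A w :=
          sup_le (fun e he => h1 e he) (fun p hp => h2 p hp)
        exact h3 (hDle hd)
      have hDfixT : ∀ t : T, (∀ e ∈ E, ψ e t = t) → (∀ p ∈ P, ψ p t = t) → ∀ d ∈ D, ψ d t = t := by
        intro t h1 h2 d hd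
        let St : Subgroup A :=
          { carrier := {a | ψ a t = t}
            one_mem' := by simp
            mul_mem' := by
              intro a b ha hb
              simp only [Set.mem_setOf_eq] at ha hb ⊢
              rw [← act_mul, hb, ha]
            inv_mem' := by
              intro a ha
              simp only [Set.mem_setOf_eq] at ha ⊢
              have h4 := act_act_inv ψ a t
              rwa [ha] at h4 }
        have h5 : E ⊔ P ≤ St := sup_le (fun e he => h1 e he) (fun p hp => h2 p hp)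
        exact h5 (hDle hd)
      constructor
      · -- a fixed point of `P` on `W₁`
        letI actW : MulAction P W₁ :=
          { smul := fun p w => ⟨(p : A) • (w : W), hPW₁ p p.2 w w.2⟩
            one_smul := fun w => Subtype.ext (by
              change ((1 : P) : A) • (w : W) = w
              simp)
            mul_smul := fun a b w => Subtype.ext (by
              change ((a * b : P) : A) • (w : W) = (a : A) • (b : A) • (w : W)
              simp [mul_smul]) }
        have hcard : ¬ s ∣ Nat.card W₁ := by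
          intro h1
          have h2 : W₁ = MulAction.orbit T₁ w₀ := by
            ext w
            constructor
            · intro hw
              obtain ⟨t, ht, htw⟩ := htrW₁ w₀ hw₀W₁ w hw
              exact ⟨⟨t, ht⟩, htw⟩
            · rintro ⟨t, rfl⟩
              exact hT₁W₁ t t.2 w₀ hw₀W₁
          rw [Nat.card_coe_set_eq, h2, ← MulAction.index_stabilizer] at h1
          exact hcT₁ (h1.trans (Subgroup.index_dvd_card _))
        obtain ⟨⟨w, hw⟩, hfx⟩ := hPp.nonempty_fixed_point_of_prime_not_dvd_card W₁ hcard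
        refine ⟨w, hw.1, hDfix w hw.2 (fun p hp => ?_)⟩
        exact congrArg Subtype.val (hfx ⟨p, hp⟩)
      · intro w₁ h₁ w₂ h₂ hfix₁ hfix₂
        have hw₁ : w₁ ∈ W₁ := ⟨h₁, fun e he => hfix₁ e (hEle he)⟩
        have hw₂ : w₂ ∈ W₁ := ⟨h₂, fun e he => hfix₂ e (hEle he)⟩
        obtain ⟨t, ht, htw⟩ := htrW₁ w₁ hw₁ w₂ hw₂
        let C : Set T := {x | x ∈ T₁ ∧ x • w₁ = w₂}
        have hPC : ∀ p ∈ P, ∀ x ∈ C, ψ p x ∈ C := by
          intro p hp x hx
          refine ⟨hPT₁ p hp x hx.1, ?_⟩
          have h1 := hcomp p x w₁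
          rw [hx.2, hfix₁ p (hPle hp), hfix₂ p (hPle hp)] at h1
          exact h1.symm
        letI actC : MulAction P C :=
          { smul := fun p x => ⟨ψ (p : A) (x : T), hPC p p.2 x x.2⟩
            one_smul := fun x => Subtype.ext (by
              change ψ ((1 : P) : A) (x : T) = x
              simp)
            mul_smul := fun a b x => Subtype.ext (by
              change ψ ((a * b : P) : A) (x : T) = ψ (a : A) (ψ (b : A) (x : T))
              rw [act_mul]
              rfl) }
        have hcard : ¬ s ∣ Nat.card C := by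
          let St : Subgroup T := MulAction.stabilizer T w₁ ⊓ T₁
          let e : St ≃ C :=
            { toFun := fun x => ⟨t * x, mul_mem ht (Subgroup.mem_inf.mp x.2).2, by
                have h0 : (x : T) • w₁ = w₁ := (Subgroup.mem_inf.mp x.2).1
                rw [mul_smul, h0, htw]⟩
              invFun := fun y => ⟨t⁻¹ * y, Subgroup.mem_inf.mpr ⟨by
                have h0 : (y : T) • w₁ = w₂ := y.2.2
                change (t⁻¹ * (y : T)) • w₁ = w₁
                rw [mul_smul, h0, ← htw, inv_smul_smul], mul_mem (inv_mem ht) y.2.1⟩⟩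
              left_inv := fun x => Subtype.ext (by simp)
              right_inv := fun y => Subtype.ext (by simp) }
          rw [← Nat.card_congr e]
          intro h1
          exact hcT₁ (h1.trans (Subgroup.card_dvd_of_le inf_le_right))
        obtain ⟨⟨c, hc'⟩, hfx⟩ := hPp.nonempty_fixed_point_of_prime_not_dvd_card C hcard
        refine ⟨c, hc'.1.1, hDfixT c hc'.1.2 (fun p hp => ?_), hc'.2⟩
        exact congrArg Subtype.val (hfx ⟨p, hp⟩)

end Fix

end Cfsg.Agent.Lib.FrobAut
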