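import Mathlib
import Cfsg.Agent.Lib.FrobAutB

/-!
# Frobenius groups of automorphisms: passing to subgroups and quotients.
-/

set_option autoImplicit false

open Cfsg Cfsg.Agent.Lib.PCore

namespace Cfsg.Agent.Lib.FrobAut

universe u

variable {A : Type*} [Group A] [Finite A] {F H : Subgroup A}

/-- The abstract Frobenius hypotheses. -/
structure Frob (F H : Subgroup A) : Prop where
  normal : F.Normal
  nil : Group.IsNilpotent F
  fpf : ∀ h ∈ H, h ≠ 1 → ∀ f ∈ F, h * f * h⁻¹ = f → f = 1

/-- The hypotheses on the acted group. -/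
structure Hyp {G : Type*} [Group G] (φ : A →* MulAut G) (F H : Subgroup A) : Prop where
  cF : ∀ g : G, (∀ f ∈ F, φ f g = g) → g = 1
  nilH : Group.IsNilpotent (fixS φ H)

theorem Frob.hEH (hF : Frob F H) (p : ℕ) : ∀ h ∈ H, ∀ e ∈ partE F p, h * e * h⁻¹ ∈ partE F p := by
  intro h _ e he
  haveI := hF.normal
  exact conj_mem_partE (conj_iff_of_normal h) p he

theorem Frob.hfpfE (hF : Frob F H) (p : ℕ) :
    ∀ h ∈ H, h ≠ 1 → ∀ e ∈ partE F p, h * e * h⁻¹ = e → e = 1 := by
  intro h hh hne e he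
  exact hF.fpf h hh hne e (partE_le F p he)

/-- Elements fixed by both parts are fixed by `F`. -/
theorem fixed_of_parts (hF : Frob F H) {G : Type*} [Group G] (φ : A →* MulAut G) (p : ℕ) [Fact p.Prime]
    {g : G} (h1 : ∀ e ∈ partE F p, φ e g = g) (h2 : ∀ r ∈ partP F p, φ r g = g) :
    ∀ f ∈ F, φ f g = g := by
  intro f hf
  let St : Subgroup A :=
    { carrier := {a | φ a g = g}
      one_mem' := by simp
      mul_mem' := by
        intro a b ha hb
        simp only [Set.mem_setOf_eq] at ha hb ⊢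
        rw [← act_mul, hb, ha]
      inv_mem' := by
        intro a ha
        simp only [Set.mem_setOf_eq] at ha ⊢
        have h4 := act_act_inv φ a g
        rwa [ha] at h4 }
  have h5 : partE F p ⊔ partP F p ≤ St := sup_le (fun e he => h1 e he) (fun p hp => h2 p hp)
  exact h5 (le_parts F hF.nil p hf)

section

variable {G : Type*} [Group G] [Finite G]

/-- `E = O_{p'}(F)` has no fixed points on an invariant `p`-subgroup. -/
theorem no_fix_E (hF : Frob F H) (φ : A →* MulAut G) (hc : ∀ g : G, (∀ f ∈ F, φ f g = g) → g = 1)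
    {p : ℕ} [Fact p.Prime] (V : Subgroup G) (hV : Inv φ V) (hVp : IsPGroup p V) :
    ∀ v ∈ V, (∀ e ∈ partE F p, φ e v = v) → v = 1 := by
  intro v hv hvE
  by_contra hne
  let W : Subgroup G := V ⊓ fixS φ (partE F p)
  have hW : W ≠ ⊥ := by
    intro h0
    have : v ∈ W := ⟨hv, hvE⟩
    rw [h0] at this
    exact hne (Subgroup.mem_bot.mp this)
  have hWp : IsPGroup p W := hVp.to_le inf_le_left
  have hinv : ∀ r ∈ partP F p, ∀ x ∈ W, φ r x ∈ W := by
    intro r hr x hx
    refine ⟨hV r x hx.1, fun e he => ?_⟩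
    have hrF : r ∈ F := partP_le F p hr
    have h1 : r⁻¹ * e * r ∈ partE F p := by
      have := conj_mem_partE (conj_iff_of_mem (D := F) (inv_mem hrF)) p he
      simpa using this
    have h2 : φ e (φ r x) = φ r (φ (r⁻¹ * e * r) x) := by
      rw [act_mul, act_mul]
      congr 2
      group
    rw [h2, hx.2 _ h1]
  obtain ⟨x, hx, hx1, hxr⟩ := exists_fixed_of_pGroup φ (partP F p) (isPGroup_partP F p) W hWp hW hinv
  exact hx1 (hc x (fixed_of_parts hF φ p hx.2 hxr))

/-- Covering of the `H`-fixed cosets. -/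
theorem lift_H (hF : Frob F H) (φ : A →* MulAut G) (hc : ∀ g : G, (∀ f ∈ F, φ f g = g) → g = 1)
    {p : ℕ} [Fact p.Prime] (V : Subgroup G) (hV : Inv φ V) (hVp : IsPGroup p V)
    (hVc : ∀ x ∈ V, ∀ y ∈ V, x * y = y * x)
    (g : G) (hg : ∀ h ∈ H, g⁻¹ * φ h g ∈ V) : ∃ c, c ∈ fixS φ H ∧ g⁻¹ * c ∈ V := by
  classical
  letI : CommGroup V := { (inferInstance : Group V) with
    mul_comm := fun a b => Subtype.ext (hVc a a.2 b b.2) }
  haveI := Fintype.ofFinite A
  let σ : A →* MulAut V := res φ V hV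
  have hfix : ∀ m : V, (∀ e ∈ partE F p, σ e m = m) → m = 1 := by
    intro m hm
    apply Subtype.ext
    exact no_fix_E hF φ hc V hV hVp m m.2 (fun e he => congrArg Subtype.val (hm e he))
  let γ : H → V := fun h => ⟨g⁻¹ * φ (h : A) g, hg h h.2⟩
  have hγ : ∀ h k : H, γ (h * k) = γ h * σ (h : A) (γ k) := by
    intro h k
    apply Subtype.ext
    change g⁻¹ * φ ((h * k : H) : A) g = g⁻¹ * φ (h : A) g * φ (h : A) (g⁻¹ * φ (k : A) g)
    rw [map_mul (φ (h : A)), map_inv]
    simp only [Subgroup.coe_mul, ← act_mul]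
    group
  obtain ⟨u, hu⟩ := cocycle_trivial σ (partE F p) H (hF.hEH p) (hF.hfpfE p) hfix γ hγ
  refine ⟨g * u, ?_, by simpa using u.2⟩
  intro h hh
  have h1 : g⁻¹ * φ h g = (u : G) * (φ h (u : G))⁻¹ :=
    congrArg Subtype.val (hu ⟨h, hh⟩)
  rw [map_mul]
  have h2 : φ h g = g * ((u : G) * (φ h (u : G))⁻¹) := by
    rw [← h1]; group
  rw [h2]
  group

/-- No nontrivial `F`-fixed cosets. -/
theorem lift_F (hF : Frob F H) (φ : A →* MulAut G) (hc : ∀ g : G, (∀ f ∈ F, φ f g = g) → g = 1)
    {p : ℕ} [Fact p.Prime] (V : Subgroup G) (hV : Inv φ V) (hVp : IsPGroup p V)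
    (hVc : ∀ x ∈ V, ∀ y ∈ V, x * y = y * x)
    (g : G) (hg : ∀ f ∈ F, g⁻¹ * φ f g ∈ V) : g ∈ V := by
  classical
  letI : CommGroup V := { (inferInstance : Group V) with
    mul_comm := fun a b => Subtype.ext (hVc a a.2 b b.2) }
  haveI := Fintype.ofFinite A
  let σ : A →* MulAut V := res φ V hV
  set E := partE F p with hE
  have hEF : E ≤ F := partE_le F p
  let γ : E → V := fun h => ⟨g⁻¹ * φ (h : A) g, hg h (hEF h.2)⟩
  have hγ : ∀ h k : E, γ (h * k) = γ h * σ (h : A) (γ k) := by
    intro h k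
    apply Subtype.ext
    change g⁻¹ * φ ((h * k : E) : A) g = g⁻¹ * φ (h : A) g * φ (h : A) (g⁻¹ * φ (k : A) g)
    rw [map_mul (φ (h : A)), map_inv]
    simp only [Subgroup.coe_mul, ← act_mul]
    group
  have hcop : Nat.Coprime (Nat.card E) (Nat.card V) := by
    obtain ⟨n, hn⟩ := IsPGroup.iff_card.mp hVp
    rw [hn]
    exact Nat.Coprime.pow_right _ (coprime_partE F p)
  obtain ⟨u, hu⟩ := cocycle_coprime σ E hcop γ hγ
  set c := g * (u : G) with hcdef
  have hcE : ∀ e ∈ E, φ e c = c := by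
    intro e he
    have h1 : g⁻¹ * φ e g = (u : G) * (φ e (u : G))⁻¹ :=
      congrArg Subtype.val (hu ⟨e, he⟩)
    rw [hcdef, map_mul]
    have h2 : φ e g = g * ((u : G) * (φ e (u : G))⁻¹) := by
      rw [← h1]; group
    rw [h2]
    group
  have hcF : ∀ f ∈ F, φ f c = c := by
    intro f hf
    have hv : c⁻¹ * φ f c ∈ V := by
      have h1 : c⁻¹ * φ f c = (u : G)⁻¹ * (g⁻¹ * φ f g) * φ f (u : G) := by
        rw [hcdef, map_mul]; group
      rw [h1]
      exact mul_mem (mul_mem (inv_mem u.2) (hg f hf)) (hV f u u.2)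
    have hfixv : ∀ e ∈ E, φ e (c⁻¹ * φ f c) = c⁻¹ * φ f c := by
      intro e he
      have h3 : f⁻¹ * e * f ∈ E := by
        have := conj_mem_partE (conj_iff_of_mem (D := F) (inv_mem hf)) p he
        simpa using this
      have h4 : φ e (φ f c) = φ f (φ (f⁻¹ * e * f) c) := by
        rw [act_mul, act_mul]
        congr 2
        group
      rw [map_mul, map_inv, hcE e he, h4, hcE _ h3]
    have h5 := no_fix_E hF φ hc V hV hVp _ hv hfixv
    have h6 : φ f c = c := by
      have := congrArg (fun x => c * x) h5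
      simpa using this
    exact h6
  have h7 := hc c hcF
  have h8 : g = (u : G)⁻¹ := eq_inv_of_mul_eq_one_left h7
  rw [h8]
  exact inv_mem u.2

theorem hyp_res {φ : A →* MulAut G} (hyp : Hyp φ F H) (M : Subgroup G) (hM : Inv φ M) :
    Hyp (res φ M hM) F H := by
  constructor
  · intro g hg
    apply Subtype.ext
    exact hyp.cF g (fun f hf => congrArg Subtype.val (hg f hf))
  · let f : fixS (res φ M hM) H →* fixS φ H :=
      { toFun := fun x => ⟨((x : M) : G), fun h hh => congrArg Subtype.val (x.2 h hh)⟩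
        map_one' := rfl
        map_mul' := fun _ _ => rfl }
    have hf : Function.Injective f := by
      intro x y hxy
      apply Subtype.ext
      apply Subtype.ext
      exact congrArg (fun z : fixS φ H => (z : G)) hxy
    exact nil_of_inj f hf hyp.nilH

theorem hyp_quo (hF : Frob F H) {φ : A →* MulAut G} (hyp : Hyp φ F H)
    {p : ℕ} [Fact p.Prime] (V : Subgroup G) [V.Normal] (hV : Inv φ V) (hVp : IsPGroup p V)
    (hVc : ∀ x ∈ V, ∀ y ∈ V, x * y = y * x) : Hyp (quo φ V hV) F H := by
  constructor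
  · intro x hx
    induction x using QuotientGroup.induction_on with
    | H g =>
      have h1 : g ∈ V := by
        apply lift_F hF φ hyp.cF V hV hVp hVc
        intro f hf
        have h2 := hx f hf
        rw [quo_mk] at h2
        exact (QuotientGroup.eq.mp h2.symm)
      exact (QuotientGroup.eq_one_iff g).mpr h1
  · haveI := hyp.nilH
    let f : fixS φ H →* fixS (quo φ V hV) H :=
      { toFun := fun x => ⟨((x : G) : G ⧸ V), fun h hh => by
          rw [quo_mk, x.2 h hh]⟩
        map_one' := rfl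
        map_mul' := fun _ _ => rfl }
    have hf : Function.Surjective f := by
      rintro ⟨x, hx⟩
      induction x using QuotientGroup.induction_on with
      | H g =>
        obtain ⟨c, hc1, hc2⟩ := lift_H hF φ hyp.cF V hV hVp hVc g (fun h hh => by
          have h2 := hx h hh
          rw [quo_mk] at h2
          exact (QuotientGroup.eq.mp h2.symm))
        refine ⟨⟨c, hc1⟩, ?_⟩
        apply Subtype.ext
        change ((c : G) : G ⧸ V) = (g : G ⧸ V)
        exact (QuotientGroup.eq.mpr hc2).symm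
    exact nilpotent_of_surjective f hf

end

end Cfsg.Agent.Lib.FrobAut
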