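import Mathlib
import Cfsg.Agent.Lib.FrobAutC
import Cfsg.Agent.Lib.Coprime

/-!
# Frobenius groups of automorphisms: the abelian normal section.
-/

set_option autoImplicit false

open Cfsg Cfsg.Agent.Lib.PCore

namespace Cfsg.Agent.Lib.FrobAut

universe u

variable {A : Type*} [Group A] [Finite A] {F H : Subgroup A}

theorem isPGroup_zpowers' {X : Type*} [Group X] {q : ℕ} (y : X) (k : ℕ) (h : y ^ q ^ k = 1) :
    IsPGroup q (Subgroup.zpowers y) := by
  rintro ⟨z, hz⟩
  obtain ⟨n, rfl⟩ := Subgroup.mem_zpowers_iff.mp hz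
  refine ⟨k, Subtype.ext ?_⟩
  change (y ^ n) ^ q ^ k = 1
  rw [← zpow_natCast, ← zpow_mul, mul_comm, zpow_mul, zpow_natCast, h, one_zpow]

theorem eq_one_of_pow_pow {X : Type*} [Group X] {p q : ℕ} (hp : p.Prime) (hq : q.Prime) (hpq : q ≠ p)
    {x : X} {a b : ℕ} (h1 : x ^ p ^ a = 1) (h2 : x ^ q ^ b = 1) : x = 1 := by
  have h3 : orderOf x ∣ p ^ a := orderOf_dvd_of_pow_eq_one h1
  have h4 : orderOf x ∣ q ^ b := orderOf_dvd_of_pow_eq_one h2
  have hc : Nat.Coprime (p ^ a) (q ^ b) :=
    Nat.Coprime.pow _ _ ((Nat.coprime_primes hp hq).mpr (Ne.symm hpq))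
  exact orderOf_eq_one_iff.mp (Nat.eq_one_of_dvd_coprimes hc h3 h4)

section

variable {G : Type u} [Group G] [Finite G]

theorem card_lt_of_ne_top' (M : Subgroup G) (hne : M ≠ ⊤) : Nat.card M < Nat.card G :=
  lt_of_le_of_ne (Subgroup.card_le_card_group M) (fun h => hne (Subgroup.eq_top_of_card_eq M h))

/-- `G` has abelian normal invariant `p`-subgroup `V` minimal, with `G/V` a `q`-group. -/
theorem final_group (hF : Frob F H) (φ : A →* MulAut G) (hyp : Hyp φ F H)
    (hIH : ∀ (G' : Type u) [Group G'] [Finite G'] (φ' : A →* MulAut G'),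
      Nat.card G' < Nat.card G → Hyp φ' F H → Group.IsNilpotent G')
    (V : Subgroup G) [hVn : V.Normal] (hV : Inv φ V) (hVne : V ≠ ⊥) (hVtop : V ≠ ⊤)
    (hmin : ∀ W : Subgroup G, W.Normal → Inv φ W → W ≠ ⊥ → W ≤ V → W = V)
    (hVc : ∀ x ∈ V, ∀ y ∈ V, x * y = y * x)
    {p q : ℕ} [Fact p.Prime] [Fact q.Prime] (hVp : IsPGroup p V) (hqp : q ≠ p)
    (hQ : IsPGroup q (G ⧸ V)) : Group.IsNilpotent G := by
  classical
  have hp : p.Prime := Fact.out
  have hq : q.Prime := Fact.out
  have hnilP : ∀ M : Subgroup G, Inv φ M → M ≠ ⊤ → Group.IsNilpotent M := fun M hM hne =>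
    hIH M (res φ M hM) (card_lt_of_ne_top' M hne) (hyp_res hyp M hM)
  have hyp' : Hyp (quo φ V hV) F H := hyp_quo hF hyp V hV hVp hVc
  haveI hnilQ : Group.IsNilpotent (G ⧸ V) := hQ.isNilpotent
  -- the centralizer
  let C : Subgroup G := Subgroup.centralizer (V : Set G)
  haveI hCn : C.Normal := inferInstance
  have hCinv : Inv φ C := by
    intro a x hx
    rw [Subgroup.mem_centralizer_iff]
    intro v hv
    have h1 := (Subgroup.mem_centralizer_iff.mp hx) (φ a⁻¹ v) (hV a⁻¹ v hv)
    have h2 := congrArg (φ a) h1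
    rw [map_mul, map_mul, act_inv_act] at h2
    exact h2
  have hVC : V ≤ C := fun x hx => Subgroup.mem_centralizer_iff.mpr
    (fun y hy => hVc y hy x hx)
  by_cases hCtop : C = ⊤
  · -- `V` is central
    have hVcen : V ≤ Subgroup.center G := by
      intro v hv
      rw [Subgroup.mem_center_iff]
      intro g
      have hg : g ∈ C := by rw [hCtop]; trivial
      exact (Subgroup.mem_centralizer_iff.mp hg v hv).symm
    apply Group.of_quotient_center_nilpotent
    let f : G ⧸ V →* G ⧸ Subgroup.center G :=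
      QuotientGroup.map V (Subgroup.center G) (MonoidHom.id G) (by
        intro x hx
        exact hVcen hx)
    have hf : Function.Surjective f := by
      intro x
      induction x using QuotientGroup.induction_on with
      | H g => exact ⟨(g : G ⧸ V), rfl⟩
    exact Group.nilpotent_of_surjective f hf
  haveI hCnil : Group.IsNilpotent C := hnilP C hCinv hCtop
  by_cases hCV : C = V
  swap
  · -- a second abelian normal subgroup
    have hlt : V < C := lt_of_le_of_ne hVC (Ne.symm hCV)
    obtain ⟨x, hxC, hxV⟩ := SetLike.exists_of_lt hlt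
    obtain ⟨k, hk⟩ := hQ (x : G ⧸ V)
    have hxk : x ^ q ^ k ∈ V := by
      have : ((x ^ q ^ k : G) : G ⧸ V) = 1 := by
        rw [QuotientGroup.mk_pow, hk]
      exact (QuotientGroup.eq_one_iff _).mp this
    obtain ⟨m, hm⟩ := hVp ⟨_, hxk⟩
    have hm' : (x ^ q ^ k) ^ p ^ m = 1 := congrArg Subtype.val hm
    set y := x ^ p ^ m with hy
    have hyk : y ^ q ^ k = 1 := by
      rw [hy, ← pow_mul, mul_comm, pow_mul, hm']
    have hy1 : y ≠ 1 := by
      intro h0
      apply hxV
      have h1 : (x : G ⧸ V) = 1 := by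
        apply eq_one_of_pow_pow hp hq hqp (a := m) (b := k) _ hk
        rw [← QuotientGroup.mk_pow, ← hy, h0]
        rfl
      exact (QuotientGroup.eq_one_iff _).mp h1
    have hyC : y ∈ C := pow_mem hxC _
    have h1 : (⟨y, hyC⟩ : C) ∈ pCore q C := by
      have h2 : (⟨y, hyC⟩ : C) ^ q ^ k = 1 := Subtype.ext hyk
      exact le_pCore_of_nilpotent hCnil (isPGroup_zpowers' _ k h2) (Subgroup.mem_zpowers _)
    let D : Subgroup G := (pCore q C).map C.subtype
    haveI hDn : D.Normal := normal_char_map _ (pCore_characteristic q)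
    have hDinv : Inv φ D := inv_char_map hCinv _ (pCore_characteristic q)
    have hDq : IsPGroup q D := (isPGroup_pCore q).map _
    have hyD : y ∈ D := ⟨_, h1, rfl⟩
    haveI hDnt : Nontrivial D := by
      refine ⟨⟨⟨y, hyD⟩, 1, ?_⟩⟩
      intro h0
      exact hy1 (congrArg Subtype.val h0)
    let V' : Subgroup G := (Subgroup.center D).map D.subtype
    haveI hV'n : V'.Normal := normal_char_map _ inferInstance
    have hV'inv : Inv φ V' := inv_char_map hDinv _ inferInstance
    have hV'q : IsPGroup q V' := (hDq.to_subgroup _).map _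
    have hV'ne : V' ≠ ⊥ := by
      intro h0
      have h2 := hDq.center_nontrivial
      obtain ⟨⟨a, ha⟩, hne⟩ := exists_ne (1 : Subgroup.center D)
      have h3 : (a : G) ∈ V' := ⟨a, ha, rfl⟩
      rw [h0, Subgroup.mem_bot] at h3
      apply hne
      apply Subtype.ext
      exact Subtype.ext h3
    have hV'c : ∀ x ∈ V', ∀ y ∈ V', x * y = y * x := by
      rintro _ ⟨a, ha, rfl⟩ _ ⟨b, hb, rfl⟩
      exact congrArg Subtype.val ((Subgroup.mem_center_iff.mp hb) a)
    have hyp'' : Hyp (quo φ V' hV'inv) F H := hyp_quo hF hyp V' hV'inv hV'q hV'c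
    haveI hnil'' : Group.IsNilpotent (G ⧸ V') :=
      hIH _ _ (Cfsg.Agent.Lib.Coprime.card_quotient_lt hV'ne) hyp''
    have hdisj : Disjoint V V' := by
      apply Subgroup.disjoint_of_coprime_natCard
      obtain ⟨a, ha⟩ := IsPGroup.iff_card.mp hVp
      obtain ⟨b, hb⟩ := IsPGroup.iff_card.mp hV'q
      rw [ha, hb]
      exact Nat.Coprime.pow _ _ ((Nat.coprime_primes hp hq).mpr (Ne.symm hqp))
    let f : G →* (G ⧸ V) × (G ⧸ V') := (QuotientGroup.mk' V).prod (QuotientGroup.mk' V')
    have hf : Function.Injective f := by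
      rw [injective_iff_map_eq_one]
      intro a ha
      have h2 : ((a : G ⧸ V), (a : G ⧸ V')) = (1, 1) := ha
      have h3 : a ∈ V := (QuotientGroup.eq_one_iff _).mp (congrArg Prod.fst h2)
      have h4 : a ∈ V' := (QuotientGroup.eq_one_iff _).mp (congrArg Prod.snd h2)
      exact Subgroup.disjoint_def.mp hdisj h3 h4
    exact nil_of_inj f hf inferInstance
  -- the faithful case: a contradiction from `final_core`
  exfalso
  haveI := Fintype.ofFinite A
  let X := G ⧸ V
  let Z : Subgroup X := Subgroup.center X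
  haveI : Fintype Z := Fintype.ofFinite Z
  have hXnt : Nontrivial X := by
    obtain ⟨g, hg⟩ : ∃ g, g ∉ V := by
      by_contra hcon
      push Not at hcon
      exact hVtop (eq_top_iff.mpr (fun g _ => hcon g))
    refine ⟨⟨(g : G ⧸ V), 1, ?_⟩⟩
    intro h0
    exact hg ((QuotientGroup.eq_one_iff _).mp h0)
  have hZinv : Inv (quo φ V hV) Z := by
    intro a z hz
    rw [Subgroup.mem_center_iff]
    intro g
    have h1 := (Subgroup.mem_center_iff.mp hz) (quo φ V hV a⁻¹ g)
    have h2 := congrArg (quo φ V hV a) h1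
    rw [map_mul, map_mul, act_inv_act] at h2
    exact h2
  letI hZcomm : CommGroup Z := { (inferInstance : Group Z) with
    mul_comm := fun a b => Subtype.ext ((Subgroup.mem_center_iff.mp b.2) a) }
  letI hVcomm : CommGroup V := { (inferInstance : Group V) with
    mul_comm := fun a b => Subtype.ext (hVc a a.2 b b.2) }
  let σ : A →* MulAut V := res φ V hV
  let ψ : A →* MulAut Z := res (quo φ V hV) Z hZinv
  let ρ₀ : X →* MulAut V := QuotientGroup.lift V (MulAut.conjNormal : G →* MulAut V) (by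
    intro v hv
    ext x
    simp only [MulAut.conjNormal_apply, MulAut.one_apply]
    rw [hVc v hv x x.2]
    simp)
  let ρ : Z →* MulAut V := ρ₀.comp Z.subtype
  have hρ : ∀ (g : G) (hg : (g : X) ∈ Z) (m : V), ((ρ ⟨(g : X), hg⟩ m : V) : G) = g * m * g⁻¹ := by
    intro g hg m
    exact MulAut.conjNormal_apply g m
  have hcomp : ∀ a y m, σ a (ρ y m) = ρ (ψ a y) (σ a m) := by
    rintro a ⟨y, hy⟩ m
    induction y using QuotientGroup.induction_on with
    | H g =>
      apply Subtype.ext
      have hg' : ((φ a g : G) : X) ∈ Z := hZinv a _ hy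
      have h1 : ψ a ⟨(g : X), hy⟩ = ⟨((φ a g : G) : X), hg'⟩ := rfl
      rw [h1, hρ]
      change φ a ((ρ ⟨(g : X), hy⟩ m : V) : G) = _
      rw [hρ]
      simp [map_mul, map_inv]
      rfl
  have hEfix : ∀ m : V, (∀ e ∈ partE F p, σ e m = m) → m = 1 := by
    intro m hm
    apply Subtype.ext
    exact no_fix_E hF φ hyp.cF V hV hVp m m.2 (fun e he => congrArg Subtype.val (hm e he))
  have hcE : Nat.Coprime (Nat.card (partE F p)) (Nat.card V) := by
    obtain ⟨n, hn⟩ := IsPGroup.iff_card.mp hVp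
    rw [hn]
    exact Nat.Coprime.pow_right _ (coprime_partE F p)
  have hZq : IsPGroup q Z := hQ.to_subgroup Z
  have hcQ : Nat.Coprime (Nat.card Z) (Nat.card V) := by
    obtain ⟨a, ha⟩ := IsPGroup.iff_card.mp hVp
    obtain ⟨b, hb⟩ := IsPGroup.iff_card.mp hZq
    rw [ha, hb]
    exact Nat.Coprime.pow _ _ ((Nat.coprime_primes hq hp).mpr hqp)
  have hY : ∀ y, (∀ h ∈ H, ψ h y = y) → ∀ v, (∀ h ∈ H, σ h v = v) → ρ y v = v := by
    rintro ⟨y, hy⟩ hyH v hvH
    induction y using QuotientGroup.induction_on with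
    | H g =>
      have hg : ∀ h ∈ H, g⁻¹ * φ h g ∈ V := by
        intro h hh
        have h1 : ((φ h g : G) : X) = (g : X) := congrArg Subtype.val (hyH h hh)
        exact QuotientGroup.eq.mp h1.symm
      obtain ⟨c, hc1, hc2⟩ := lift_H hF φ hyp.cF V hV hVp hVc g hg
      have hcg : (c : X) = (g : X) := (QuotientGroup.eq.mpr hc2).symm
      have hcZ : (c : X) ∈ Z := by rw [hcg]; exact hy
      have hy' : (⟨(g : X), hy⟩ : Z) = ⟨(c : X), hcZ⟩ := Subtype.ext hcg.symm
      rw [hy']
      apply Subtype.ext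
      rw [hρ]
      -- commuting in the nilpotent group of `H`-fixed points
      haveI hN : Group.IsNilpotent (fixS φ H) := hyp.nilH
      have hvfix : (v : G) ∈ fixS φ H := fun h hh => congrArg Subtype.val (hvH h hh)
      let c' : fixS φ H := ⟨c, hc1⟩
      let v' : fixS φ H := ⟨v, hvfix⟩
      obtain ⟨k, hk⟩ := hVp v
      have hk' : (v : G) ^ p ^ k = 1 := congrArg Subtype.val hk
      have hvk : v' ^ p ^ k = 1 := Subtype.ext hk'
      have hvp : IsPGroup p (Subgroup.zpowers v') := isPGroup_zpowers' v' k hvk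
      have hn0 : orderOf c' ≠ 0 := (orderOf_pos c').ne'
      obtain ⟨a, m, hm, hn⟩ := Nat.exists_eq_pow_mul_and_not_dvd hn0 p hp.ne_one
      have hcop : Nat.Coprime (p ^ a) m :=
        Nat.Coprime.pow_left _ ((Nat.Prime.coprime_iff_not_dvd hp).mpr hm)
      have hbez : IsCoprime ((p ^ a : ℕ) : ℤ) (m : ℤ) := Nat.isCoprime_iff_coprime.mpr hcop
      obtain ⟨u, w, huw⟩ := hbez
      let z : fixS φ H := c' ^ (u * ((p ^ a : ℕ) : ℤ))
      let x : fixS φ H := c' ^ (w * (m : ℤ))
      have hzx : z * x = c' := by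
        simp only [z, x]
        rw [← zpow_add, huw, zpow_one]
      have hzm : z ^ m = 1 := by
        simp only [z]
        rw [← zpow_natCast, ← zpow_mul]
        have h1 : u * ((p ^ a : ℕ) : ℤ) * (m : ℤ) = u * ((orderOf c' : ℕ) : ℤ) := by
          rw [hn]; push_cast; ring
        rw [h1, mul_comm, zpow_mul, zpow_natCast, pow_orderOf_eq_one, one_zpow]
      have hxp : x ^ p ^ a = 1 := by
        simp only [x]
        rw [← zpow_natCast, ← zpow_mul]
        have h1 : w * (m : ℤ) * ((p ^ a : ℕ) : ℤ) = w * ((orderOf c' : ℕ) : ℤ) := by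
          rw [hn]; push_cast; ring
        rw [h1, mul_comm, zpow_mul, zpow_natCast, pow_orderOf_eq_one, one_zpow]
      have hzcop : Nat.Coprime (orderOf z) p :=
        Nat.Coprime.coprime_dvd_left (orderOf_dvd_of_pow_eq_one hzm)
          ((Nat.Prime.coprime_iff_not_dvd hp).mpr hm).symm
      have hcz : Commute v' z := commute_of_coprime_of_nilpotent hN hvp hzcop
      have hxV : (x : G) ∈ V := by
        obtain ⟨b, hb⟩ := hQ (((x : G)) : G ⧸ V)
        have h1 : (((x : G)) : G ⧸ V) ^ p ^ a = 1 := by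
          rw [← QuotientGroup.mk_pow]
          have : (x : G) ^ p ^ a = 1 := congrArg Subtype.val hxp
          rw [this]
          rfl
        exact (QuotientGroup.eq_one_iff _).mp (eq_one_of_pow_pow hp hq hqp h1 hb)
      have hcxv : (x : G) * v = v * (x : G) := hVc _ hxV _ v.2
      have hczv : (z : G) * v = v * (z : G) := (congrArg Subtype.val hcz.eq).symm
      have hcc : c = (z : G) * (x : G) := congrArg Subtype.val hzx.symm
      have hfinal : c * (v : G) = v * c := by
        rw [hcc, mul_assoc, hcxv, ← mul_assoc, hczv, mul_assoc]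
      rw [hfinal]
      simp
  have hgen : ∀ K : Subgroup Z, K ≠ ⊤ → ∃ a : A, ∃ y : Z, (∀ h ∈ H, ψ h y = y) ∧ ψ a y ∉ K := by
    intro K hK
    refine star_gen ψ (partE F q) H (hF.hEH q) (hF.hfpfE q) ?_ ?_ K hK
    · intro m hm
      apply Subtype.ext
      exact no_fix_E hF (quo φ V hV) hyp'.cF Z hZinv hZq m m.2
        (fun e he => congrArg Subtype.val (hm e he))
    · obtain ⟨n, hn⟩ := IsPGroup.iff_card.mp hZq
      rw [hn]
      exact Nat.Coprime.pow_right _ (coprime_partE F q)
  have hQfix : ∀ m : V, (∀ y, ρ y m = m) → m = 1 := by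
    intro m hm
    by_contra hm1
    let W : Subgroup G :=
      { carrier := {v | v ∈ V ∧ ∀ g : G, (g : X) ∈ Z → g * v * g⁻¹ = v}
        one_mem' := ⟨one_mem _, fun g _ => by simp⟩
        mul_mem' := by
          rintro a b ⟨ha, ha'⟩ ⟨hb, hb'⟩
          refine ⟨mul_mem ha hb, fun g hg => ?_⟩
          have : g * (a * b) * g⁻¹ = (g * a * g⁻¹) * (g * b * g⁻¹) := by group
          rw [this, ha' g hg, hb' g hg]
        inv_mem' := by
          rintro a ⟨ha, ha'⟩
          refine ⟨inv_mem ha, fun g hg => ?_⟩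
          have : g * a⁻¹ * g⁻¹ = (g * a * g⁻¹)⁻¹ := by group
          rw [this, ha' g hg] }
    have hWn : W.Normal := by
      constructor
      rintro x ⟨hx, hx'⟩ t
      refine ⟨hVn.conj_mem x hx t, fun g hg => ?_⟩
      have h1 : ((t⁻¹ * g * t : G) : X) ∈ Z := by
        have hc := Subgroup.mem_center_iff.mp hg ((t : G) : X)
        have h0 : ((t⁻¹ * g * t : G) : X) = (g : X) := by
          rw [QuotientGroup.mk_mul, QuotientGroup.mk_mul, QuotientGroup.mk_inv, mul_assoc, ← hc,
            inv_mul_cancel_left]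
        rw [h0]
        exact hg
      have h3 := hx' _ h1
      have h4 : g * (t * x * t⁻¹) * g⁻¹ = t * ((t⁻¹ * g * t) * x * (t⁻¹ * g * t)⁻¹) * t⁻¹ := by group
      rw [h4, h3]
    have hWinv : Inv φ W := by
      rintro a x ⟨hx, hx'⟩
      refine ⟨hV a x hx, fun g hg => ?_⟩
      have h1 : ((φ a⁻¹ g : G) : X) ∈ Z := hZinv a⁻¹ _ hg
      have h3 := hx' _ h1
      have h4 := congrArg (φ a) h3
      rw [map_mul (φ a), map_mul (φ a), map_inv (φ a), act_inv_act] at h4
      exact h4
    have hmW : (m : G) ∈ W := by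
      refine ⟨m.2, fun g hg => ?_⟩
      have h1 := congrArg Subtype.val (hm ⟨(g : X), hg⟩)
      rwa [hρ] at h1
    have hWne : W ≠ ⊥ := by
      intro h0
      rw [h0, Subgroup.mem_bot] at hmW
      exact hm1 (Subtype.ext hmW)
    have hWV : W = V := hmin W hWn hWinv hWne (fun x hx => hx.1)
    have hZtriv : ∀ z : Z, z = 1 := by
      rintro ⟨z, hz⟩
      induction z using QuotientGroup.induction_on with
      | H g =>
        have hgC : g ∈ C := by
          rw [Subgroup.mem_centralizer_iff]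
          intro v hv
          have hv' : v ∈ W := by rw [hWV]; exact hv
          have h1 := hv'.2 g hz
          have h2 : g * v = v * g := by
            have := congrArg (fun y => y * g) h1
            simpa using this
          exact h2.symm
        rw [hCV] at hgC
        apply Subtype.ext
        exact (QuotientGroup.eq_one_iff _).mpr hgC
    have h5 := hQ.center_nontrivial
    obtain ⟨z, hz⟩ := exists_ne (1 : Subgroup.center X)
    exact hz (hZtriv z)
  have hall := final_core σ ψ ρ hcomp (partE F p) H (hF.hEH p) (hF.hfpfE p) hEfix hcE hcQ hY hgen hQfix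
  apply hVne
  rw [eq_bot_iff]
  intro v hv
  have := congrArg Subtype.val (hall ⟨v, hv⟩)
  exact Subgroup.mem_bot.mpr this

end

end Cfsg.Agent.Lib.FrobAut
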