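import Mathlib
import Cfsg.Prelude.Def_Solvable
import Cfsg.Agent.Lib.Frobenius

/-!
# Constructing Frobenius complements from fixed-point-free actions

If `H` acts fixed-point-freely on a nontrivial finite group `N`, then (a copy of) `H` is a Frobenius
complement in `N ⋊ H`; the kernel has `|N|` elements.  The group can be taken in `Type`.
-/

set_option autoImplicit false
set_option linter.style.haveILetI false

open Cfsg
open scoped Pointwise

namespace Cfsg.Agent.Lib.FrobConstruct

open Cfsg.Agent.Lib.Frobenius

theorem frob_semidirect {N H : Type*} [Group N] [Group H] (φ : H →* MulAut N) [Nontrivial N]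
    [Nontrivial H] (hfpf : ∀ a : H, a ≠ 1 → ∀ v : N, φ a v = v → v = 1) :
    IsFrobeniusComplement (SemidirectProduct.inr : H →* N ⋊[φ] H).range := by
  refine ⟨?_, ?_, ?_⟩
  · obtain ⟨a, ha⟩ := exists_ne (1 : H)
    intro hbot
    have h1 : (SemidirectProduct.inr a : N ⋊[φ] H) ∈ (SemidirectProduct.inr : H →* N ⋊[φ] H).range :=
      ⟨a, rfl⟩
    rw [hbot, Subgroup.mem_bot] at h1
    apply ha
    have h2 := congrArg SemidirectProduct.right h1
    simpa using h2
  · obtain ⟨v, hv⟩ := exists_ne (1 : N)
    intro htop
    have h1 : (SemidirectProduct.inl v : N ⋊[φ] H) ∈ (SemidirectProduct.inr : H →* N ⋊[φ] H).range := by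
      rw [htop]; trivial
    obtain ⟨a, ha⟩ := h1
    apply hv
    have h2 := congrArg SemidirectProduct.left ha
    simpa using h2.symm
  · intro g hg
    rw [eq_bot_iff]
    rintro x ⟨hx1, hx2⟩
    rw [Subgroup.mem_bot]
    have hx2' := mem_conj_iff.mp hx2
    obtain ⟨a, rfl⟩ := hx1
    obtain ⟨b, hb⟩ := hx2'
    have h1 : (SemidirectProduct.inr a : N ⋊[φ] H) * g = g * SemidirectProduct.inr b := by
      rw [hb]; group
    have h2 := congrArg SemidirectProduct.left h1
    simp only [SemidirectProduct.mul_left, SemidirectProduct.left_inr, SemidirectProduct.right_inr,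
      one_mul, map_one, mul_one] at h2
    by_cases ha : a = 1
    · simp [ha]
    · exfalso
      apply hg
      have h3 := hfpf a ha _ h2
      refine ⟨g.right, ?_⟩
      apply SemidirectProduct.ext
      · simp [h3]
      · simp

/-- Any group acting fpf on a nontrivial finite group is a Frobenius complement (with `L : Type`),
version with `N : Type`. -/
theorem exists_of_mulAut {N : Type} [Group N] [Finite N] [Nontrivial N] {H : Type*} [Group H]
    [Nontrivial H] (φ : H →* MulAut N) (hfpf : ∀ a : H, a ≠ 1 → ∀ v : N, φ a v = v → v = 1) :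
    ∃ (L : Type) (_ : Group L) (_ : Finite L) (C : Subgroup L), IsFrobeniusComplement C ∧
      Nonempty (H ≃* C) ∧ Nat.card (frobeniusKernel C) = Nat.card N := by
  have hinj : Function.Injective φ := by
    rw [injective_iff_map_eq_one]
    intro a ha
    by_contra ha1
    obtain ⟨v, hv⟩ := exists_ne (1 : N)
    exact hv (hfpf a ha1 v (by rw [ha]; rfl))
  let H' : Subgroup (MulAut N) := φ.range
  let e : H ≃* H' := MonoidHom.ofInjective hinj
  haveI : Nontrivial H' := e.symm.toEquiv.nontrivial
  let φ' : H' →* MulAut N := H'.subtype
  let L := N ⋊[φ'] H'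
  haveI : Finite L := Finite.of_equiv _ (SemidirectProduct.equivProd (φ := φ')).symm
  have hF : IsFrobeniusComplement (SemidirectProduct.inr : H' →* N ⋊[φ'] H').range := by
    apply frob_semidirect
    rintro ⟨_, a, rfl⟩ ha v hv
    apply hfpf a _ v hv
    rintro rfl
    apply ha
    exact Subtype.ext (map_one φ)
  refine ⟨L, inferInstance, inferInstance, _, hF, ?_, ?_⟩
  · have hi : Function.Injective (SemidirectProduct.inr : H' →* N ⋊[φ'] H') :=
      SemidirectProduct.inr_injective
    exact ⟨e.trans (MonoidHom.ofInjective hi)⟩
  · rw [card_kernel hF]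
    have hi : Function.Injective (SemidirectProduct.inr : H' →* N ⋊[φ'] H') :=
      SemidirectProduct.inr_injective
    have h1 := (SemidirectProduct.inr : H' →* N ⋊[φ'] H').range.card_mul_index
    have h2 : Nat.card ((SemidirectProduct.inr : H' →* N ⋊[φ'] H').range) = Nat.card H' :=
      Nat.card_congr (MonoidHom.ofInjective hi).toEquiv.symm
    have h3 : Nat.card (N ⋊[φ'] H') = Nat.card N * Nat.card H' := by
      rw [Nat.card_congr (SemidirectProduct.equivProd (φ := φ')), Nat.card_prod]
    rw [h2, h3, mul_comm (Nat.card N)] at h1
    exact Nat.eq_of_mul_eq_mul_left Nat.card_pos h1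

/-- A copy of `Fin n` without algebraic structure. -/
def FinBox (n : ℕ) : Type := Fin n

/-- Any group acting fpf on a nontrivial finite additive group is a Frobenius complement. The
action is given as a function. -/
theorem exists_of_action {V : Type*} [AddCommGroup V] [Finite V] [Nontrivial V] {H : Type*}
    [Group H] [Nontrivial H] (f : H → V → V) (f_one : ∀ v, f 1 v = v)
    (f_mul : ∀ g h v, f (g * h) v = f g (f h v)) (f_add : ∀ g v w, f g (v + w) = f g v + f g w)
    (hfpf : ∀ g, g ≠ 1 → ∀ v, f g v = v → v = 0) :
    ∃ (L : Type) (_ : Group L) (_ : Finite L) (C : Subgroup L), IsFrobeniusComplement C ∧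
      Nonempty (H ≃* C) ∧ Nat.card (frobeniusKernel C) = Nat.card V := by
  classical
  obtain ⟨n, ⟨e0⟩⟩ := Finite.exists_equiv_fin V
  let e : V ≃ FinBox n := e0
  letI : AddCommGroup (FinBox n) := e.symm.addCommGroup
  haveI : Nontrivial (FinBox n) := e.symm.nontrivial
  haveI : Finite (FinBox n) := Finite.of_equiv _ e
  let ea : V ≃+ FinBox n := e.symm.addEquiv.symm
  let N := Multiplicative (FinBox n)
  let φ : H →* MulAut N :=
    { toFun := fun g =>
        { toFun := fun v => Multiplicative.ofAdd (ea (f g (ea.symm (Multiplicative.toAdd v))))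
          invFun := fun v => Multiplicative.ofAdd (ea (f g⁻¹ (ea.symm (Multiplicative.toAdd v))))
          left_inv := by
            intro v
            simp [← f_mul, f_one]
          right_inv := by
            intro v
            simp [← f_mul, f_one]
          map_mul' := by
            intro v w
            show Multiplicative.ofAdd (ea (f g (ea.symm (Multiplicative.toAdd v +
              Multiplicative.toAdd w)))) = _
            rw [map_add, f_add, map_add, ofAdd_add] }
      map_one' := by
        ext v
        simp [f_one]
      map_mul' := by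
        intro g h
        apply MulEquiv.ext
        intro v
        show Multiplicative.ofAdd (ea (f (g * h) (ea.symm (Multiplicative.toAdd v)))) =
          Multiplicative.ofAdd (ea (f g (ea.symm (Multiplicative.toAdd (Multiplicative.ofAdd
            (ea (f h (ea.symm (Multiplicative.toAdd v)))))))))
        simp [f_mul] }
  have := exists_of_mulAut (N := N) φ (by
    intro a ha v hv
    have h1 : ea (f a (ea.symm (Multiplicative.toAdd v))) = Multiplicative.toAdd v :=
      congrArg Multiplicative.toAdd hv
    have h2 : f a (ea.symm (Multiplicative.toAdd v)) = ea.symm (Multiplicative.toAdd v) := by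
      have := congrArg ea.symm h1
      simpa using this
    have h3 := hfpf a ha _ h2
    have h4 : Multiplicative.toAdd v = 0 := by
      simpa using h3
    exact h4)
  obtain ⟨L, i1, i2, C, h1, h2, h3⟩ := this
  refine ⟨L, i1, i2, C, h1, h2, ?_⟩
  rw [h3]
  exact (Nat.card_congr (Multiplicative.toAdd.trans ea.symm.toEquiv))

end Cfsg.Agent.Lib.FrobConstruct
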