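import Mathlib
import Cfsg.Prelude.Def_SylowChains
import Cfsg.Agent.Lib.SylowChainTools

/-!
# Chains for regular subgroups (functor families)

`SChain`: the ambient form of a chain of Sylow subgroups of `M` linked in the family induced by `f`.
-/

set_option autoImplicit false

open Cfsg Cfsg.Agent.Lib.SylowChainTools

namespace Cfsg.Agent.Lib.FunctorChain

variable {G : Type*} [Group G] {p : ℕ} {f : Subgroup G → Set (Subgroup G)}

theorem conjRight_eq_self_of_mem_normalizer {F : Subgroup G} {y : G}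
    (hy : y ∈ Subgroup.normalizer (F : Set G)) : subgroupConjRight y F = F := by
  ext z
  rw [mem_conjRight]
  exact ((Subgroup.mem_normalizer_iff.mp hy) z).symm

theorem functor_conj (hf : IsNormalizerFunctor p f) {P F : Subgroup G} (hP : IsPGroup p P)
    (hF : F ∈ f P) (y : G) : subgroupConjRight y F ∈ f (subgroupConjRight y P) := by
  have := (hf P hP).2 y⁻¹
  unfold subgroupConjRight
  rw [this]
  exact ⟨F, hF, rfl⟩

theorem mem_f_conj_of_normalizer (hf : IsNormalizerFunctor p f) {P F : Subgroup G}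
    (hP : IsPGroup p P) (hF : F ∈ f P) {y : G} (hy : y ∈ Subgroup.normalizer (F : Set G)) :
    F ∈ f (subgroupConjRight y P) := by
  have := functor_conj hf hP hF y
  rwa [conjRight_eq_self_of_mem_normalizer hy] at this

theorem normalizer_le_of_mem_f (hf : IsNormalizerFunctor p f) {P F : Subgroup G} (hP : IsPGroup p P)
    (hF : F ∈ f P) : Subgroup.normalizer (P : Set G) ≤ Subgroup.normalizer (F : Set G) :=
  ((hf P hP).1 F hF).2

theorem le_normalizer_of_mem_f (hf : IsNormalizerFunctor p f) {P F : Subgroup G} (hP : IsPGroup p P)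
    (hF : F ∈ f P) : P ≤ Subgroup.normalizer (F : Set G) :=
  Subgroup.le_normalizer.trans (normalizer_le_of_mem_f hf hP hF)

theorem isPGroup_conjRight {X : Subgroup G} (hX : IsPGroup p X) (g : G) :
    IsPGroup p (subgroupConjRight g X) := hX.map _

theorem map_subtype_conjRight {M : Subgroup G} (y : M) (Q : Subgroup M) :
    (subgroupConjRight y Q).map M.subtype = subgroupConjRight (y : G) (Q.map M.subtype) := by
  ext z
  simp only [subgroupConjRight, Subgroup.mem_map, MulEquiv.coe_toMonoidHom, MulAut.conj_apply,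
    Subgroup.coe_subtype, exists_exists_and_eq_and]
  constructor
  · rintro ⟨a, ha, rfl⟩
    exact ⟨a, ha, by simp⟩
  · rintro ⟨a, ha, rfl⟩
    exact ⟨a, ha, by simp⟩

/-- A Sylow subgroup of `H` inside `X` is conjugate in `X` to any `X`-Sylow of the form `T ⊓ X`. -/
theorem exists_conj_of_le {H : Type*} [Group H] [Finite H] [Fact p.Prime] (P T : Sylow p H)
    (X : Subgroup H) (hPX : (P : Subgroup H) ≤ X) (hT : IsSylIn p ((T : Subgroup H) ⊓ X) X) :
    ∃ y ∈ X, subgroupConjRight y (P : Subgroup H) = T := by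
  obtain ⟨Q, hQ⟩ := exists_sylow_iff.mpr hT
  obtain ⟨y, hy⟩ := exists_conjRight_eq (P.subtype hPX) Q
  refine ⟨y, y.2, ?_⟩
  have h1 : ((P.subtype hPX : Sylow p X) : Subgroup X).map X.subtype = P := by
    rw [Sylow.coe_subtype]
    exact Subgroup.map_subgroupOf_eq_of_le hPX
  have h2 : subgroupConjRight (y : H) (P : Subgroup H) = (T : Subgroup H) ⊓ X := by
    rw [← hQ, ← hy, map_subtype_conjRight, h1]
  have h3 : ((sylowConjRight (y : H) P : Sylow p H) : Subgroup H) ≤ T := by
    rw [coe_sylowConjRight, h2]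
    exact inf_le_left
  have h4 := sylow_eq_of_le h3
  rw [← h4]
  rfl

/-- The ambient form of a chain of Sylow subgroups of `M` linked in the family induced by `f`. -/
inductive SChain (p : ℕ) (f : Subgroup G → Set (Subgroup G)) (M D : Subgroup G) :
    Subgroup G → Subgroup G → Prop
  | refl (A : Subgroup G) (hA : IsSylIn p A M) (hD : D ≤ A) : SChain p f M D A A
  | step {A B U : Subgroup G} (F : Subgroup G) (x : G) (h : SChain p f M D A B)
      (hU : IsSylIn p U M) (hFB : F ∈ f B) (hFU : F ∈ f U) (hx : x ∈ M)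
      (hxF : x ∈ Subgroup.normalizer (F : Set G)) (hconj : subgroupConjRight x U = B) (hD : D ≤ U) :
      SChain p f M D A U

theorem SChain.isSylIn_left {M D A B : Subgroup G} (h : SChain p f M D A B) : IsSylIn p A M := by
  induction h with
  | refl hA _ => exact hA
  | step _ _ _ _ _ _ _ _ _ _ ih => exact ih

theorem SChain.isSylIn_right {M D A B : Subgroup G} (h : SChain p f M D A B) : IsSylIn p B M := by
  cases h with
  | refl hA _ => exact hA
  | step _ _ _ hU _ _ _ _ _ _ => exact hU

theorem SChain.le_right {M D A B : Subgroup G} (h : SChain p f M D A B) : D ≤ B := by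
  cases h with
  | refl _ hD => exact hD
  | step _ _ _ _ _ _ _ _ _ hD => exact hD

theorem SChain.mono_D {M D D' A B : Subgroup G} (hD' : D' ≤ D) (h : SChain p f M D A B) :
    SChain p f M D' A B := by
  induction h with
  | refl hA hD => exact SChain.refl _ hA (hD'.trans hD)
  | step F x _ hU hFB hFU hx hxF hconj hD ih =>
    exact SChain.step F x ih hU hFB hFU hx hxF hconj (hD'.trans hD)

/-- The chain in `↥M` given by regularity, in ambient form. -/
theorem schain_of_chainRel [Finite G] [Fact p.Prime] (hf : IsNormalizerFunctor p f) {M : Subgroup G}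
    {D' : Subgroup M} {A' B' : Sylow p M}
    (h : ChainRel p ((fun X : Subgroup G => X.subgroupOf M) '' functorFamily p f M) D' A' B') :
    SChain p f M (D'.map M.subtype) ((A' : Subgroup M).map M.subtype) ((B' : Subgroup M).map M.subtype) := by
  have hsyl : ∀ T' : Sylow p M, IsSylIn p ((T' : Subgroup M).map M.subtype) M :=
    fun T' => exists_sylow_iff.mp ⟨T', rfl⟩
  have hp : ∀ T' : Sylow p M, IsPGroup p ((T' : Subgroup M).map M.subtype) := fun T' => (hsyl T').2.1
  -- the key point: a member of the family containing a Sylow subgroup in the right way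
  have key : ∀ (T' : Sylow p M) (X' : Subgroup M),
      X' ∈ sylowMembers p ((fun X : Subgroup G => X.subgroupOf M) '' functorFamily p f M) (T' : Subgroup M) →
      ∃ F : Subgroup G, F ∈ f ((T' : Subgroup M).map M.subtype) ∧
        X' = (M ⊓ Subgroup.normalizer (F : Set G)).subgroupOf M := by
    intro T' X' hX'
    rw [sylowMembers_iff] at hX'
    obtain ⟨⟨X, ⟨P, F, hF, rfl⟩, rfl⟩, hsy⟩ := hX'
    have hPX : (P : Subgroup M) ≤ (M ⊓ Subgroup.normalizer (F : Set G)).subgroupOf M := by
      intro z hz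
      rw [Subgroup.mem_subgroupOf]
      exact ⟨z.2, le_normalizer_of_mem_f hf (hp P) hF ⟨z, hz, rfl⟩⟩
    obtain ⟨y, hy, hyT⟩ := exists_conj_of_le P T' _ hPX hsy
    refine ⟨F, ?_, rfl⟩
    rw [← hyT, map_subtype_conjRight]
    apply mem_f_conj_of_normalizer hf (hp P) hF
    rw [Subgroup.mem_subgroupOf] at hy
    exact hy.2
  induction h with
  | refl hS => exact SChain.refl _ (hsyl _) (Subgroup.map_mono hS)
  | @step T U X' x' _ h1 h2 hx hconj hD ih =>
    obtain ⟨F, hF, rfl⟩ := key T X' h1
    obtain ⟨F', hF', hXX⟩ := key U _ h2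
    have hF'' : F ∈ f ((U : Subgroup M).map M.subtype) := by
      -- from the second membership, work directly
      rw [sylowMembers_iff] at h1 h2
      have hPX : (T : Subgroup M) ≤ (M ⊓ Subgroup.normalizer (F : Set G)).subgroupOf M := by
        intro z hz
        rw [Subgroup.mem_subgroupOf]
        exact ⟨z.2, le_normalizer_of_mem_f hf (hp T) hF ⟨z, hz, rfl⟩⟩
      obtain ⟨y, hy, hyT⟩ := exists_conj_of_le T U _ hPX h2.2
      rw [← hyT, map_subtype_conjRight]
      apply mem_f_conj_of_normalizer hf (hp T) hF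
      rw [Subgroup.mem_subgroupOf] at hy
      exact hy.2
    rw [Subgroup.mem_subgroupOf] at hx
    refine SChain.step F x' ih (hsyl U) hF hF'' x'.2 hx.2 ?_ ?_
    · rw [← map_subtype_conjRight, hconj]
    · exact Subgroup.map_mono (hD.trans inf_le_left)

theorem inf_map_subtype {M : Subgroup G} (A B : Subgroup M) :
    (A ⊓ B).map M.subtype = A.map M.subtype ⊓ B.map M.subtype :=
  Subgroup.map_inf _ _ _ M.subtype_injective

/-- Regularity gives ambient chains between Sylow subgroups of `M`. -/
theorem schain_of_regular [Finite G] [Fact p.Prime] (hf : IsNormalizerFunctor p f) {M A B : Subgroup G}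
    (hreg : IsFunctorRegular p f M) (hA : IsSylIn p A M) (hB : IsSylIn p B M) (hne : A ≠ B)
    (hbot : A ⊓ B ≠ ⊥) : SChain p f M (A ⊓ B) A B := by
  obtain ⟨A', rfl⟩ := exists_sylow_iff.mpr hA
  obtain ⟨B', rfl⟩ := exists_sylow_iff.mpr hB
  have h1 : A' ≠ B' := by
    rintro rfl
    exact hne rfl
  have h2 : (A' : Subgroup M) ⊓ (B' : Subgroup M) ≠ ⊥ := by
    intro h
    apply hbot
    rw [← inf_map_subtype, h, Subgroup.map_bot]
  have := schain_of_chainRel hf (controls_iff.mp hreg A' B' h1 h2)
  rwa [inf_map_subtype] at this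

/-- Members of the family in `G`. -/
theorem mem_family_top {Q : Sylow p G} {F : Subgroup G} (hF : F ∈ f (Q : Subgroup G)) [Finite G] :
    Subgroup.normalizer (F : Set G) ∈ functorFamily p f ⊤ := by
  refine ⟨Q.subtype le_top, F, ?_, by simp⟩
  rw [Sylow.coe_subtype, Subgroup.map_subgroupOf_eq_of_le le_top]
  exact hF

theorem isSylIn_of_le {T : Sylow p G} {X : Subgroup G} (h : (T : Subgroup G) ≤ X) :
    IsSylIn p ((T : Subgroup G) ⊓ X) X := by
  rw [inf_eq_left.mpr h]
  exact ⟨h, T.isPGroup', fun E _ hE hle => T.is_maximal' hE hle⟩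

theorem sylowMember_of_le {𝓕 : Set (Subgroup G)} {T : Sylow p G} {X : Subgroup G} (h𝓕 : X ∈ 𝓕)
    (h : (T : Subgroup G) ≤ X) : X ∈ sylowMembers p 𝓕 (T : Subgroup G) :=
  sylowMembers_iff.mpr ⟨h𝓕, isSylIn_of_le h⟩

/-- A subgroup of `M` which is Sylow in `M`, where `M` contains a Sylow subgroup of `G`, is Sylow in `G`. -/
theorem exists_sylow_of_isSylIn [Finite G] [Fact p.Prime] {M U : Subgroup G} (S : Sylow p G)
    (hS : (S : Subgroup G) ≤ M) (hU : IsSylIn p U M) : ∃ U' : Sylow p G, (U' : Subgroup G) = U := by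
  obtain ⟨Q, rfl⟩ := exists_sylow_iff.mpr hU
  obtain ⟨y, hy⟩ := exists_conjRight_eq (S.subtype hS) Q
  refine ⟨sylowConjRight (y : G) S, ?_⟩
  rw [← hy, map_subtype_conjRight, Sylow.coe_subtype, Subgroup.map_subgroupOf_eq_of_le hS]
  rfl

/-- Chains in a regular subgroup containing a Sylow subgroup of `G` are chains in `G`. -/
theorem chainRel_of_schain [Finite G] [Fact p.Prime] (hf : IsNormalizerFunctor p f) {M D A₀ U₀ : Subgroup G}
    (S : Sylow p G) (hS : (S : Subgroup G) ≤ M) (h : SChain p f M D A₀ U₀) (A : Sylow p G)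
    (hA : (A : Subgroup G) = A₀) :
    ∃ U : Sylow p G, (U : Subgroup G) = U₀ ∧ ChainRel p (functorFamily p f ⊤) D A U := by
  induction h with
  | refl hA₁ hD =>
    exact ⟨A, hA, ChainRel.refl A (hA ▸ hD)⟩
  | @step B U F x hch hU hFB hFU hx hxF hconj hD ih =>
    obtain ⟨B', hB', hchain⟩ := ih
    obtain ⟨U', hU'⟩ := exists_sylow_of_isSylIn S hS hU
    subst hU'
    subst hB'
    refine ⟨U', rfl, ?_⟩
    have hmem : Subgroup.normalizer (F : Set G) ∈ functorFamily p f ⊤ := mem_family_top hFB
    exact ChainRel.step _ x hchain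
      (sylowMember_of_le hmem (le_normalizer_of_mem_f hf B'.isPGroup' hFB))
      (sylowMember_of_le hmem (le_normalizer_of_mem_f hf U'.isPGroup' hFU)) hxF hconj
      (le_inf hD (hD.trans (le_normalizer_of_mem_f hf U'.isPGroup' hFU)))

/-- Sylow subgroups of `G` inside a regular subgroup are chained in `G`. -/
theorem chainRel_of_regular [Finite G] [Fact p.Prime] (hf : IsNormalizerFunctor p f) {M : Subgroup G}
    (hreg : IsFunctorRegular p f M) (A B : Sylow p G)
    (hA : (A : Subgroup G) ≤ M) (hB : (B : Subgroup G) ≤ M)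
    (hbot : (A : Subgroup G) ⊓ (B : Subgroup G) ≠ ⊥) :
    ChainRel p (functorFamily p f ⊤) ((A : Subgroup G) ⊓ (B : Subgroup G)) A B := by
  by_cases hne : A = B
  · subst hne
    exact ChainRel.refl A inf_le_left
  · have hAs : IsSylIn p (A : Subgroup G) M :=
      ⟨hA, A.isPGroup', fun E _ hE hle => A.is_maximal' hE hle⟩
    have hBs : IsSylIn p (B : Subgroup G) M :=
      ⟨hB, B.isPGroup', fun E _ hE hle => B.is_maximal' hE hle⟩
    have hne' : (A : Subgroup G) ≠ B := fun h => hne (Sylow.ext h)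
    obtain ⟨U, hU, hch⟩ := chainRel_of_schain hf A hA (schain_of_regular hf hreg hAs hBs hne' hbot) A rfl
    have : U = B := Sylow.ext hU
    rwa [this] at hch

/-- Conjugates of chains. -/
theorem ChainRel.conj {𝓕 : Set (Subgroup G)} (h𝓕 : IsNormalSet 𝓕) {D : Subgroup G} {S T : Sylow p G}
    (h : ChainRel p 𝓕 D S T) (g : G) :
    ChainRel p 𝓕 (subgroupConjRight g D) (sylowConjRight g S) (sylowConjRight g T) := by
  induction h with
  | refl hS => exact ChainRel.refl _ (conjRight_le hS)
  | @step T U X x _ h1 h2 hx hconj hD ih =>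
    refine ChainRel.step (subgroupConjRight g X) (g⁻¹ * x * g) ih
      (mem_sylowMembers_conjRight h𝓕 h1 g) (mem_sylowMembers_conjRight h𝓕 h2 g) ?_ ?_ ?_
    · rw [mem_conjRight]
      have e : g * (g⁻¹ * x * g) * g⁻¹ = x := by group
      rwa [e]
    · simp only [coe_sylowConjRight]
      rw [← conjRight_mul]
      have e : g * (g⁻¹ * x * g) = x * g := by group
      rw [e, conjRight_mul, hconj]
    · rw [coe_sylowConjRight, ← conjRight_inf]
      exact conjRight_le hD

/-- The family in `G` is normal. -/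
theorem isNormalSet_family [Finite G] [Fact p.Prime] (hf : IsNormalizerFunctor p f) :
    IsNormalSet (functorFamily p f ⊤) := by
  rintro _ ⟨P, F, hF, rfl⟩ g
  set Q : Subgroup G := (P : Subgroup (⊤ : Subgroup G)).map (⊤ : Subgroup G).subtype with hQ
  have hQs : IsSylIn p Q ⊤ := exists_sylow_iff.mp ⟨P, rfl⟩
  have hQp : IsPGroup p Q := hQs.2.1
  have h1 := functor_conj hf hQp hF g
  obtain ⟨Q', hQ'⟩ := exists_sylow_iff.mpr (hQs.conj g |> fun h => by
    have e : subgroupConjRight g (⊤ : Subgroup G) = ⊤ := by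
      ext z; simp [mem_conjRight]
    rwa [e] at h)
  refine ⟨Q', subgroupConjRight g F, ?_, ?_⟩
  · rw [hQ']; exact h1
  · rw [top_inf_eq, top_inf_eq]
    ext z
    rw [mem_conjRight, Subgroup.mem_normalizer_iff, Subgroup.mem_normalizer_iff]
    constructor
    · intro h w
      have h2 := h (g * w * g⁻¹)
      simp only [mem_conjRight] at *
      have e : g * (z * w * z⁻¹) * g⁻¹ = g * z * g⁻¹ * (g * w * g⁻¹) * (g * z * g⁻¹)⁻¹ := by group
      rw [e]
      exact h2
    · intro h w
      have h2 := h (g⁻¹ * w * g)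
      simp only [mem_conjRight] at h2
      have e1 : g * (g⁻¹ * w * g) * g⁻¹ = w := by group
      have e2 : g * (z * (g⁻¹ * w * g) * z⁻¹) * g⁻¹ = g * z * g⁻¹ * w * (g * z * g⁻¹)⁻¹ := by group
      rw [e1, e2] at h2
      exact h2

/-- From chains in `G` to regularity of `G` (as the subgroup `⊤`). -/
theorem regular_top_of_chain [Finite G] [Fact p.Prime]
    (H : ∀ S T : Sylow p G, S ≠ T → (S : Subgroup G) ⊓ (T : Subgroup G) ≠ ⊥ →
      ChainRel p (functorFamily p f ⊤) ((S : Subgroup G) ⊓ (T : Subgroup G)) S T) :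
    IsFunctorRegular p f ⊤ := by
  have hsub : ∀ {X E : Subgroup G}, IsSylIn p E X →
      IsSylIn p (E.subgroupOf (⊤ : Subgroup G)) (X.subgroupOf (⊤ : Subgroup G)) := by
    intro X E hE
    refine ⟨fun z hz => hE.1 hz, ?_, ?_⟩
    · exact hE.2.1.comap_of_injective _ (Subgroup.subtype_injective _)
    · intro E' hE' hE'p hle
      have h1 : E'.map (⊤ : Subgroup G).subtype = E := by
        apply hE.2.2
        · rintro _ ⟨w, hw, rfl⟩
          exact hE' hw
        · exact hE'p.map _
        · intro z hz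
          exact ⟨⟨z, trivial⟩, hle hz, rfl⟩
      rw [← h1]
      ext z
      simp [Subgroup.mem_subgroupOf]
  have htrans : ∀ {D : Subgroup G} {S T : Sylow p G}, ChainRel p (functorFamily p f ⊤) D S T →
      ChainRel p ((fun X : Subgroup G => X.subgroupOf (⊤ : Subgroup G)) '' functorFamily p f ⊤)
        (D.subgroupOf ⊤) (S.subtype le_top) (T.subtype le_top) := by
    intro D S T h
    induction h with
    | refl hS => exact ChainRel.refl _ (by
        rw [Sylow.coe_subtype]
        exact fun z hz => hS hz)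
    | @step T U X x _ h1 h2 hx hconj hD ih =>
      rw [sylowMembers_iff] at h1 h2
      have hinf : ∀ A B : Subgroup G, (A ⊓ B).subgroupOf (⊤ : Subgroup G) =
          A.subgroupOf ⊤ ⊓ B.subgroupOf ⊤ := by
        intro A B
        ext z
        simp [Subgroup.mem_subgroupOf]
      refine ChainRel.step (X.subgroupOf ⊤) ⟨x, trivial⟩ ih ?_ ?_ ?_ ?_ ?_
      · rw [sylowMembers_iff]
        refine ⟨⟨X, h1.1, rfl⟩, ?_⟩
        rw [Sylow.coe_subtype, ← hinf]
        exact hsub h1.2
      · rw [sylowMembers_iff]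
        refine ⟨⟨X, h2.1, rfl⟩, ?_⟩
        rw [Sylow.coe_subtype, ← hinf]
        exact hsub h2.2
      · exact Subgroup.mem_subgroupOf.mpr hx
      · rw [Sylow.coe_subtype, Sylow.coe_subtype, ← hconj]
        ext z
        rw [mem_conjRight, Subgroup.mem_subgroupOf, Subgroup.mem_subgroupOf, mem_conjRight]
        rfl
      · rw [Sylow.coe_subtype, ← hinf]
        exact fun z hz => hD hz
  have hex : ∀ S' : Sylow p (⊤ : Subgroup G), ∃ S : Sylow p G, S.subtype le_top = S' := by
    intro S'
    have hs : IsSylIn p ((S' : Subgroup (⊤ : Subgroup G)).map (⊤ : Subgroup G).subtype) ⊤ :=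
      exists_sylow_iff.mp ⟨S', rfl⟩
    refine ⟨{ toSubgroup := (S' : Subgroup (⊤ : Subgroup G)).map (⊤ : Subgroup G).subtype
              isPGroup' := hs.2.1
              is_maximal' := fun hQ hle => hs.2.2 _ le_top hQ hle }, ?_⟩
    apply Sylow.ext
    rw [Sylow.coe_subtype]
    exact Subgroup.comap_map_eq_self_of_injective (Subgroup.subtype_injective _) _
  refine controls_iff.mpr ?_
  intro S' T' hne hbot
  obtain ⟨S, rfl⟩ := hex S'
  obtain ⟨T, rfl⟩ := hex T'
  have hne' : S ≠ T := by
    rintro rfl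
    exact hne rfl
  have hinf : (S : Subgroup G).subgroupOf (⊤ : Subgroup G) ⊓ (T : Subgroup G).subgroupOf ⊤ =
      ((S : Subgroup G) ⊓ (T : Subgroup G)).subgroupOf ⊤ := by
    ext z
    simp [Subgroup.mem_subgroupOf]
  rw [Sylow.coe_subtype, Sylow.coe_subtype] at hbot ⊢
  rw [hinf] at hbot ⊢
  have hbot' : (S : Subgroup G) ⊓ (T : Subgroup G) ≠ ⊥ := by
    intro h
    apply hbot
    rw [h]
    ext z
    simp [Subgroup.mem_subgroupOf]
  exact htrans (H S T hne' hbot')

end Cfsg.Agent.Lib.FunctorChain
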