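import Mathlib
import Cfsg.Agent.Lib.FusionAbEss2

/-!
# Automorphisms of the centre of `S`

`Aut_F(Z(S))` is a `p'`-group, all of whose elements extend to `S`. Automorphisms of `Z(S)` which invert `L = Z(S) ∩ S'` and
are trivial on `Z(S) / L` (class `IsT`) all have the same fixed points, and these fixed points form an
`Aut_F(Z(S))`-invariant set.
-/

set_option autoImplicit false

namespace Cfsg.Agent.Lib.FusionAbCore1

open Cfsg Cfsg.FusionSystem Cfsg.Agent.Lib.FusionCore Cfsg.Agent.Lib.FusionCore2 Cfsg.Agent.Lib.FusionCore3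
open Cfsg.Agent.Lib.FusionAbIdx Cfsg.Agent.Lib.FusionAbEss
open scoped commutatorElement

variable {Ω : Type*} [Group Ω] {S : Subgroup Ω} [Finite S] {F : FusionSystem S}
variable {p : ℕ} [Fact p.Prime]

/-- `Z(S) ∩ S'`. -/
abbrev Lc (S : Subgroup Ω) : Subgroup Ω := Zc S ⊓ Sd S

lemma Zc_le (S : Subgroup Ω) : Zc S ≤ S := inf_le_left

lemma le_norm_Zc : S ≤ Subgroup.normalizer (Zc S : Set Ω) := by
  intro g hg
  haveI := finite_of_le (Zc_le S)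
  apply mem_normalizer_of_conj_eq
  intro z hz
  rw [(mem_Zc.1 hz).2 g hg]
  group

theorem fn_Zc : F.IsFullyNormalized (Zc S) := by
  refine ⟨Zc_le S, fun Q hQ => ?_⟩
  have h : normalizerIn S (Zc S) = S := le_antisymm inf_le_left (le_inf le_rfl le_norm_Zc)
  rw [h]
  exact Subgroup.card_le_of_le inf_le_left

theorem fa_Zc (hS : IsPGroup p S) (hF : F.IsSaturated p) : F.IsFullyAutomized p (Zc S) :=
  (of_fullyNormalized hS hF fn_Zc).2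

theorem ext_to_S (hS : IsPGroup p S) (hF : F.IsSaturated p) {f : Ω → Ω} (hf : Maps F (Zc S) f)
    (himg : img f (Zc S) = Zc S) : ∃ k, Maps F S k ∧ ∀ x ∈ Zc S, k x = f x := by
  have hR := receptive_of_fullyCentralized hS hF (of_fullyNormalized hS hF (fn_Zc (F := F))).1
  obtain ⟨k, hk, hkf⟩ := IsReceptive.ext hR hf himg
  have hSN : S ≤ Nf S (Zc S) f := by
    intro g hg
    refine mem_Nf.2 ⟨hg, le_norm_Zc hg, 1, S.one_mem, fun x hx => ?_⟩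
    have : g * x * g⁻¹ = x := by
      rw [(mem_Zc.1 hx).2 g hg]
      group
    rw [this]
    simp
  exact ⟨k, hk.restrict hSN, hkf⟩

/-- Maps of `S` preserve the derived subgroup. -/
theorem maps_Sd {k : Ω → Ω} (hk : Maps F S k) {x : Ω} (hx : x ∈ Sd S) : k x ∈ Sd S := by
  obtain ⟨x', hxc, rfl⟩ := hx
  have hψ : ∀ u : S, hk.hom u = k u := fun u => hk.hom_apply u
  have hle : (commutator ↥S).map hk.hom ≤ Sd S := by
    rw [commutator_def, Subgroup.map_commutator, Subgroup.commutator_le]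
    rintro _ ⟨a, -, rfl⟩ _ ⟨b, -, rfl⟩
    refine ⟨⁅(⟨k a, hk.mem a.2⟩ : S), (⟨k b, hk.mem b.2⟩ : S)⁆,
      Subgroup.commutator_mem_commutator (Subgroup.mem_top _) (Subgroup.mem_top _), ?_⟩
    simp [commutatorElement_def, hψ]
  have := hle ⟨x', hxc, rfl⟩
  rw [hψ] at this
  exact this

/-- Automorphisms of `Z(S)` in the system preserve `L`. -/
theorem aut_L (hS : IsPGroup p S) (hF : F.IsSaturated p) {γ : MulAut (Zc S)} (hγ : γ ∈ F.autGroup (Zc S))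
    {ℓ : Ω} (hℓ : ℓ ∈ Lc S) : afn γ ℓ ∈ Lc S := by
  have hm := Maps_of_mem_autGroup (Zc_le S) hγ
  obtain ⟨k, hk, hkf⟩ := ext_to_S hS hF hm (afn_img γ)
  refine ⟨afn_mem γ hℓ.1, ?_⟩
  rw [← hkf ℓ hℓ.1]
  exact maps_Sd hk hℓ.2

/-- `Aut_F(Z(S))` has no nontrivial `p`-elements. -/
theorem pelt_trivial (hS : IsPGroup p S) (hF : F.IsSaturated p) {κ : MulAut (Zc S)} (hκ : κ ∈ F.autGroup (Zc S))
    {k : ℕ} (hk : κ ^ (p ^ k) = 1) : κ = 1 := by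
  have hp := isPGroup_zpowers_of_pow (p := p) hk
  obtain ⟨γ, -, hγ⟩ := IsFullyAutomized.exists_conj (fa_Zc hS hF) hp (Subgroup.zpowers_le.2 hκ)
  obtain ⟨g, hg, hgf⟩ := mem_autInducedBy.1 (hγ κ (Subgroup.mem_zpowers κ))
  have h1 : γ * κ * γ⁻¹ = 1 := by
    apply afn_ext
    intro x hx
    rw [hgf x hx, afn_one hx, (mem_Zc.1 hx).2 g hg]
    group
  have h2 : γ * κ = γ := by
    rw [mul_inv_eq_one] at h1
    exact h1
  simpa using h2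

theorem eq_one_of_sq (hS : IsPGroup p S) (hp : p ≠ 2) {ℓ : Ω} (hℓ : ℓ ∈ S) (h : ℓ * ℓ = 1) : ℓ = 1 := by
  obtain ⟨k, hk⟩ := hS ⟨ℓ, hℓ⟩
  have hk' : ℓ ^ (p ^ k) = 1 := congrArg Subtype.val hk
  have h1 : orderOf ℓ ∣ p ^ k := orderOf_dvd_of_pow_eq_one hk'
  have h2 : orderOf ℓ ∣ 2 := orderOf_dvd_of_pow_eq_one (by rw [pow_two]; exact h)
  have hc : Nat.Coprime (p ^ k) 2 := by
    apply Nat.Coprime.pow_left
    exact (Nat.coprime_primes Fact.out Nat.prime_two).2 hp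
  have h3 : orderOf ℓ = 1 := Nat.eq_one_of_dvd_coprimes hc h1 h2
  exact orderOf_eq_one_iff.1 h3

/-- Automorphisms of `Z(S)` inverting `L` and trivial on `Z(S) / L`. -/
structure IsT (F : FusionSystem S) (β : MulAut (Zc S)) : Prop where
  mem : β ∈ F.autGroup (Zc S)
  inv : ∀ ℓ ∈ Lc S, afn β ℓ = ℓ⁻¹
  quo : ∀ z ∈ Zc S, z⁻¹ * afn β z ∈ Lc S

lemma Lc_le_Zc : Lc S ≤ Zc S := inf_le_left

/-- Triviality on `Z(S) / L` passes to products. -/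
lemma quo_mul {γ δ : MulAut (Zc S)} (h1 : ∀ z ∈ Zc S, z⁻¹ * afn γ z ∈ Lc S) (h2 : ∀ z ∈ Zc S, z⁻¹ * afn δ z ∈ Lc S) :
    ∀ z ∈ Zc S, z⁻¹ * afn (γ * δ) z ∈ Lc S := by
  intro z hz
  rw [afn_mul _ _ hz]
  have := (Lc S).mul_mem (h2 z hz) (h1 _ (afn_mem δ hz))
  convert this using 1
  group

lemma quo_inv {γ : MulAut (Zc S)} (h1 : ∀ z ∈ Zc S, z⁻¹ * afn γ z ∈ Lc S) :
    ∀ z ∈ Zc S, z⁻¹ * afn γ⁻¹ z ∈ Lc S := by
  intro z hz
  have hw := afn_mem γ⁻¹ hz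
  have h2 := h1 _ hw
  rw [afn_afn_inv γ hz] at h2
  have := (Lc S).inv_mem h2
  convert this using 1
  group

lemma IsT.inv_afn {β : MulAut (Zc S)} (hβ : IsT F β) : ∀ ℓ ∈ Lc S, afn β⁻¹ ℓ = ℓ⁻¹ := by
  intro ℓ hℓ
  have h1 := hβ.inv _ ((Lc S).inv_mem hℓ)
  rw [inv_inv] at h1
  have h2 := afn_inv_afn β (Lc_le_Zc ((Lc S).inv_mem hℓ))
  rwa [h1] at h2

/-- Any two elements of the class `IsT` commute. -/
theorem IsT.comm (hS : IsPGroup p S) (hF : F.IsSaturated p) {β β' : MulAut (Zc S)} (hβ : IsT F β) (hβ' : IsT F β') :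
    β * β' = β' * β := by
  let κ : MulAut (Zc S) := β * β' * β⁻¹ * β'⁻¹
  have hκX : κ ∈ F.autGroup (Zc S) := Subgroup.mul_mem _ (Subgroup.mul_mem _ (Subgroup.mul_mem _ hβ.mem hβ'.mem)
    (Subgroup.inv_mem _ hβ.mem)) (Subgroup.inv_mem _ hβ'.mem)
  have hκ : κ ∈ stabR F (Lc_le_Zc (S := S)) := by
    refine ⟨hκX, fun ℓ hℓ => ?_, ?_⟩
    · show afn (β * β' * β⁻¹ * β'⁻¹) ℓ = ℓ
      have hℓZ : ℓ ∈ Zc S := Lc_le_Zc hℓ
      have hℓi : ℓ⁻¹ ∈ Lc S := (Lc S).inv_mem hℓ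
      rw [afn_mul _ _ hℓZ, hβ'.inv_afn ℓ hℓ, afn_mul _ _ (Lc_le_Zc hℓi), hβ.inv_afn _ hℓi, inv_inv,
        afn_mul _ _ hℓZ, hβ'.inv ℓ hℓ, hβ.inv _ hℓi, inv_inv]
    · exact quo_mul (quo_mul (quo_mul hβ.quo hβ'.quo) (quo_inv hβ.quo)) (quo_inv hβ'.quo)
  obtain ⟨k, hk⟩ := isPGroup_stabR (F := F) hS (Zc_le S) (Lc_le_Zc (S := S)) ⟨κ, hκ⟩
  have hk' : κ ^ (p ^ k) = 1 := congrArg Subtype.val hk
  have h1 := pelt_trivial hS hF hκX hk'
  have h2 : β * β' * β⁻¹ * β'⁻¹ = 1 := h1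
  rw [mul_inv_eq_one, mul_inv_eq_iff_eq_mul] at h2
  exact h2

/-- All elements of the class `IsT` have the same fixed points. -/
theorem IsT.fix_eq (hS : IsPGroup p S) (hF : F.IsSaturated p) (hp : p ≠ 2) {β β' : MulAut (Zc S)} (hβ : IsT F β)
    (hβ' : IsT F β') {y : Ω} (hy : y ∈ Zc S) (hfix : afn β y = y) : afn β' y = y := by
  have hc := hβ.comm hS hF hβ'
  have hm := Maps_of_mem_autGroup (Zc_le S) hβ.mem
  have h1 : afn β (afn β' y) = afn β' y := by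
    rw [← afn_mul _ _ hy, hc, afn_mul _ _ hy, hfix]
  set ℓ := y⁻¹ * afn β' y with hℓ
  have hℓL : ℓ ∈ Lc S := hβ'.quo y hy
  have h2 : afn β ℓ = ℓ := by
    rw [hℓ, hm.map_mul ((Zc S).inv_mem hy) (afn_mem β' hy), hm.map_inv hy, hfix, h1]
  have h3 := hβ.inv ℓ hℓL
  rw [h2] at h3
  have h4 : ℓ * ℓ = 1 := by
    nth_rw 1 [h3]
    simp
  have h5 := eq_one_of_sq hS hp (Zc_le S (Lc_le_Zc hℓL)) h4
  have h6 : y⁻¹ * afn β' y = 1 := h5
  rw [inv_mul_eq_one] at h6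
  exact h6.symm

/-- Conjugates in `Aut_F(Z(S))` of elements of the class `IsT`. -/
theorem IsT.conj (hS : IsPGroup p S) (hF : F.IsSaturated p) {β γ : MulAut (Zc S)} (hβ : IsT F β)
    (hγ : γ ∈ F.autGroup (Zc S)) : IsT F (γ * β * γ⁻¹) := by
  have hγi : γ⁻¹ ∈ F.autGroup (Zc S) := Subgroup.inv_mem _ hγ
  have hm := Maps_of_mem_autGroup (Zc_le S) hγ
  refine ⟨Subgroup.mul_mem _ (Subgroup.mul_mem _ hγ hβ.mem) hγi, fun ℓ hℓ => ?_, fun z hz => ?_⟩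
  · have hℓ' : afn γ⁻¹ ℓ ∈ Lc S := aut_L hS hF hγi hℓ
    have hℓZ : ℓ ∈ Zc S := Lc_le_Zc hℓ
    rw [afn_mul _ _ hℓZ, afn_mul _ _ (afn_mem _ hℓZ), hβ.inv _ hℓ',
      hm.map_inv (Lc_le_Zc hℓ'), afn_afn_inv γ hℓZ]
  · have hw : afn γ⁻¹ z ∈ Zc S := afn_mem _ hz
    rw [afn_mul _ _ hz, afn_mul _ _ hw]
    have h1 := aut_L hS hF hγ (hβ.quo _ hw)
    rw [hm.map_mul ((Zc S).inv_mem hw) (afn_mem β hw), hm.map_inv hw, afn_afn_inv γ hz] at h1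
    exact h1

/-- The fixed points of an element of the class `IsT` are `Aut_F(Z(S))`-invariant. -/
theorem IsT.fix_aut (hS : IsPGroup p S) (hF : F.IsSaturated p) (hp : p ≠ 2) {β γ : MulAut (Zc S)} (hβ : IsT F β)
    (hγ : γ ∈ F.autGroup (Zc S)) {y : Ω} (hy : y ∈ Zc S) (hfix : afn β y = y) : afn β (afn γ y) = afn γ y := by
  have hγi : γ⁻¹ ∈ F.autGroup (Zc S) := Subgroup.inv_mem _ hγ
  have h1 := hβ.conj hS hF hγi
  have h2 := hβ.fix_eq hS hF hp h1 hy hfix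
  have hw : afn γ y ∈ Zc S := afn_mem γ hy
  have e : afn (γ⁻¹ * β * γ⁻¹⁻¹) y = afn γ⁻¹ (afn β (afn γ y)) := by
    rw [inv_inv, afn_mul _ _ hy, afn_mul _ _ hw]
  rw [e] at h2
  have h3 := congrArg (afn γ) h2
  rwa [afn_afn_inv γ (afn_mem β hw)] at h3

end Cfsg.Agent.Lib.FusionAbCore1
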