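import Mathlib
import Cfsg.Agent.Lib.FusionAbCore1

/-!
# The inversion element for an abelian essential subgroup

`P = Z(S)⟨x⟩` abelian essential, `α ∈ Aut_F(P)` moving `Z(S)`. A word in `c_a` (`a ∈ Z₂(S) ∩ A` outside `Z(S)`) and its
`α`-conjugate restricts to an automorphism of `Z(S)` inverting `L = Z(S) ∩ S'`, trivial on `Z(S) / L`, and with fixed
points `Z(S) ∩ α(Z(S))`.
-/

set_option autoImplicit false

namespace Cfsg.Agent.Lib.FusionAbCore2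

open Cfsg Cfsg.FusionSystem Cfsg.Agent.Lib.FusionCore Cfsg.Agent.Lib.FusionCore2 Cfsg.Agent.Lib.FusionCore3
open Cfsg.Agent.Lib.FusionAbIdx Cfsg.Agent.Lib.FusionAbEss Cfsg.Agent.Lib.FusionAbEss2 Cfsg.Agent.Lib.FusionAbCore1
open scoped commutatorElement

variable {Ω : Type*} [Group Ω] {S : Subgroup Ω} [Finite S] {F : FusionSystem S} {P A : Subgroup Ω}
variable {p : ℕ} [Fact p.Prime]

lemma cmt_mem_Sd {a u : Ω} (ha : a ∈ S) (hu : u ∈ S) : a * u * a⁻¹ * u⁻¹ ∈ Sd S := by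
  refine ⟨⁅(⟨a, ha⟩ : S), (⟨u, hu⟩ : S)⁆,
    Subgroup.commutator_mem_commutator (Subgroup.mem_top _) (Subgroup.mem_top _), ?_⟩
  simp [commutatorElement_def]

/-- Generators of a group of prime order. -/
theorem mem_zpowers_of_card {L : Subgroup Ω} (hL : Nat.card L = p) {ℓ ℓ' : Ω} (hℓ : ℓ ∈ L) (hℓ' : ℓ' ∈ L) (hne : ℓ ≠ 1) :
    ℓ' ∈ Subgroup.zpowers ℓ := by
  have hne' : (⟨ℓ, hℓ⟩ : L) ≠ 1 := fun e => hne (congrArg Subtype.val e)
  have := mem_zpowers_of_prime_card (p := p) (g' := (⟨ℓ', hℓ'⟩ : L)) hL hne'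
  obtain ⟨k, hk⟩ := this
  exact ⟨k, by simpa using congrArg Subtype.val hk⟩

theorem pow_card_of_card {L : Subgroup Ω} (hL : Nat.card L = p) {ℓ : Ω} (hℓ : ℓ ∈ L) : ℓ ^ p = 1 := by
  haveI : Finite L := Nat.finite_of_card_ne_zero (by rw [hL]; exact (Fact.out : p.Prime).ne_zero)
  have := pow_card_eq_one' (x := (⟨ℓ, hℓ⟩ : L))
  rw [hL] at this
  exact congrArg Subtype.val this

theorem exists_npow {b a : Ω} (hb : b ^ p = 1) (hab : a ∈ Subgroup.zpowers b) : ∃ n : ℕ, b ^ n = a := by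
  have hp := (Fact.out : p.Prime)
  obtain ⟨i, rfl⟩ := Subgroup.mem_zpowers_iff.mp hab
  refine ⟨(i % p).toNat, ?_⟩
  have hp0 : (p : ℤ) ≠ 0 := by exact_mod_cast hp.ne_zero
  have h1 : (((i % p).toNat : ℕ) : ℤ) = i % p := Int.toNat_of_nonneg (Int.emod_nonneg _ hp0)
  rw [← zpow_natCast, h1]
  conv_rhs => rw [← Int.emod_add_mul_ediv i p, zpow_add, zpow_mul, zpow_natCast b p, hb, one_zpow, mul_one]

/-- Main construction. -/
theorem exists_T (h : AbIdx S A p) (hF : F.IsSaturated p) (hp : p ≠ 2) (hP : F.IsEssential p P) {x : Ω} (hx : x ∈ P)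
    (hxA : x ∉ A) (hPc : ∀ u ∈ P, ∀ v ∈ P, u * v = v * u) (hLc : Nat.card (Lc S) = p) {α : MulAut P}
    (hα : α ∈ F.autGroup P) {z₀ : Ω} (hz₀ : z₀ ∈ Zc S) (hmv : afn α z₀ ∉ Zc S) :
    ∃ β : MulAut (Zc S), IsT F β ∧ ∀ y ∈ Zc S, (afn β y = y ↔ y ∈ img (afn α) (Zc S)) := by
  have hS := h.pg
  have hPS : P ≤ S := hP.1.1
  haveI := finite_of_le hPS
  obtain ⟨-, hfa⟩ := of_fullyNormalized hS hF hP.2.1
  obtain ⟨hBZ, hidx, hD, hT⟩ := abelian_case h hF hP hx hxA hPc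
  have hZP : Zc S ≤ P := Zc_le_of_centric hP.1
  have hm := Maps_of_mem_autGroup hPS hα
  have hαi : α⁻¹ ∈ F.autGroup P := Subgroup.inv_mem _ hα
  have hmi := Maps_of_mem_autGroup hPS hαi
  have hxS : x ∈ S := hPS hx
  -- an element of `D` outside `Z`
  obtain ⟨a, haD, haZ⟩ : ∃ a ∈ Dc S A, a ∉ Zc S := by
    by_contra hcon
    push Not at hcon
    have h1 : (Zc S).subgroupOf (Dc S A) = ⊤ := by
      rw [eq_top_iff]
      rintro ⟨d, hd⟩ -
      exact Subgroup.mem_subgroupOf.2 (hcon d hd)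
    rw [h1, Subgroup.index_top] at hD
    exact (Fact.out : p.Prime).one_lt.ne hD
  have haN : a ∈ normalizerIn S P := mem_norm_of_D h hP.1 haD
  have haS : a ∈ S := haN.1
  let t : MulAut P := conjN S P ⟨a, haN⟩
  have ht : ∀ u ∈ P, afn t u = a * u * a⁻¹ := fun u hu => afn_conjN ⟨a, haN⟩ hu
  have htS : t ∈ autInducedBy S P := by rw [← conjN_range]; exact ⟨_, rfl⟩
  have htX : t ∈ F.autGroup P := autInducedBy_le_autGroup hPS htS
  have hmt := Maps_of_mem_autGroup hPS htX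
  have hPA : ∀ u ∈ P, u ∉ Zc S → u ∉ A := fun u hu h1 h2 => h1 (hBZ ▸ ⟨hu, h2⟩)
  have htfix : ∀ u ∈ P, afn t u = u → u ∈ Zc S := by
    intro u hu hfix
    by_contra huZ
    rw [ht u hu] at hfix
    apply haZ
    refine h.mem_Z_of_comm haD.2 (hPS hu) (hPA u hu huZ) ?_
    calc a * u = (a * u * a⁻¹) * a := by group
      _ = u * a := by rw [hfix]
  have htZ : ∀ z ∈ Zc S, afn t z = z := by
    intro z hz
    rw [ht z (hZP hz), (mem_Zc.1 hz).2 a haS]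
    group
  have htL : ∀ u ∈ P, afn t u * u⁻¹ ∈ Lc S := by
    intro u hu
    rw [ht u hu]
    exact ⟨(mem_Z2c.1 haD.1).2 u (hPS hu), cmt_mem_Sd haS (hPS hu)⟩
  have hLZ : Lc S ≤ Zc S := Lc_le_Zc
  have hLP : Lc S ≤ P := hLZ.trans hZP
  -- the element `s₀` of `L`
  have hxZ : x ∉ Zc S := fun h1 => hxA (h.Z_le h1)
  set s₀ := afn t x * x⁻¹ with hs₀
  have hs₀L : s₀ ∈ Lc S := htL x hx
  have hs₀1 : s₀ ≠ 1 := by
    intro e
    exact hxZ (htfix x hx (mul_inv_eq_one.1 e))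
  have hLgen : ∀ ℓ ∈ Lc S, ℓ ≠ 1 → ∀ ℓ' ∈ Lc S, ℓ' ∈ Subgroup.zpowers ℓ :=
    fun ℓ hℓ hne ℓ' hℓ' => mem_zpowers_of_card hLc hℓ hℓ' hne
  -- the conjugate of `t`
  let t₂ : MulAut P := α * t * α⁻¹
  have ht₂ : ∀ u ∈ P, afn t₂ u = afn α (afn t (afn α⁻¹ u)) := by
    intro u hu
    show afn (α * t * α⁻¹) u = _
    rw [afn_mul _ _ hu, afn_mul _ _ (afn_mem _ hu)]
  have ht₂X : t₂ ∈ F.autGroup P := Subgroup.mul_mem _ (Subgroup.mul_mem _ hα htX) hαi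
  have hmt₂ := Maps_of_mem_autGroup hPS ht₂X
  obtain ⟨k, hk⟩ := isPGroup_autInducedBy hS ⟨t, htS⟩
  have hk' : t ^ (p ^ k) = 1 := congrArg Subtype.val hk
  have ht₂k : t₂ ^ (p ^ k) = 1 := by
    have e : t₂ = α * t * α⁻¹ := rfl
    rw [e, conj_pow, hk']
    simp
  have ht₂p := isPGroup_zpowers_of_pow (p := p) ht₂k
  -- formula for `t₂`
  have ht₂mul : ∀ u ∈ P, ∃ ℓ ∈ Lc S, afn t₂ u * u⁻¹ = afn α ℓ ∧ (ℓ = 1 → u ∈ img (afn α) (Zc S)) := by
    intro u hu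
    have hv := afn_mem α⁻¹ hu
    refine ⟨afn t (afn α⁻¹ u) * (afn α⁻¹ u)⁻¹, htL _ hv, ?_, fun e => ?_⟩
    · rw [ht₂ u hu, hm.map_mul (afn_mem t hv) (P.inv_mem hv), hm.map_inv hv, afn_afn_inv α hu]
    · have h1 := htfix _ hv (mul_inv_eq_one.1 e)
      rw [← afn_afn_inv α hu]
      exact (hm.restrict hZP).mem_img_of_mem h1
  -- `f ∉ Z`
  set f := afn α s₀ with hf
  have hfZ : f ∉ Zc S := by
    intro hfZ
    have hst : ∀ z ∈ Zc S, afn t₂ z ∈ Zc S := by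
      intro z hz
      obtain ⟨ℓ, hℓ, e, -⟩ := ht₂mul z (hZP hz)
      have h1 : afn t₂ z = afn α ℓ * z := by
        rw [← e]; group
      rw [h1]
      refine (Zc S).mul_mem ?_ hz
      obtain ⟨i, rfl⟩ := Subgroup.mem_zpowers_iff.1 (hLgen s₀ hs₀L hs₀1 ℓ hℓ)
      rw [hm.map_zpow (hLP hs₀L)]
      exact (Zc S).zpow_mem hfZ i
    have hmem := mem_stabR_of_stab hS hfa hZP hT ht₂X ht₂p hst
    have hαZ : ∀ z ∈ Zc S, afn α⁻¹ z ∈ Zc S := by
      intro z hz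
      have h1 := hmem.2.1 z hz
      rw [ht₂ z (hZP hz)] at h1
      have h2 := congrArg (afn α⁻¹) h1
      rw [afn_inv_afn α (afn_mem t (afn_mem _ (hZP hz)))] at h2
      exact htfix _ (afn_mem _ (hZP hz)) h2
    obtain ⟨z', hz', e⟩ := exists_pre_of_stab hZP hPS hαZ hz₀
    apply hmv
    rw [← e, afn_afn_inv α (hZP hz')]
    exact hz'
  have hfP : f ∈ P := afn_mem α (hLP hs₀L)
  -- the element `e`
  set e := afn t f * f⁻¹ with he
  have heL : e ∈ Lc S := htL f hfP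
  have he1 : e ≠ 1 := fun e1 => hfZ (htfix f hfP (mul_inv_eq_one.1 e1))
  have heP : e ∈ P := hLP heL
  set H : Subgroup Ω := img (afn α) (Zc S) with hH
  have hHmem : ∀ w, w ∈ H ↔ ∃ z ∈ Zc S, afn α z = w := fun w => (hm.restrict hZP).mem_img
  have hHP : H ≤ P := by
    intro w hw
    obtain ⟨z, hz, rfl⟩ := (hHmem w).1 hw
    exact afn_mem α (hZP hz)
  have hfH : f ∈ H := (hHmem f).2 ⟨s₀, hLZ hs₀L, rfl⟩
  have heH : e ∉ H := by
    intro heH
    have hst : ∀ z ∈ Zc S, ∃ z' ∈ Zc S, a * afn α z * a⁻¹ = afn α z' := by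
      intro z hz
      have hzP := afn_mem α (hZP hz)
      have h1 := htL _ hzP
      rw [ht _ hzP] at h1
      have h2 : a * afn α z * a⁻¹ * (afn α z)⁻¹ ∈ H := by
        obtain ⟨i, hi⟩ := Subgroup.mem_zpowers_iff.1 (hLgen e heL he1 _ h1)
        rw [← hi]
        exact H.zpow_mem heH i
      have h3 : a * afn α z * a⁻¹ ∈ H := by
        have := H.mul_mem h2 ((hHmem _).2 ⟨z, hz, rfl⟩)
        simpa using this
      obtain ⟨z', hz', e'⟩ := (hHmem _).1 h3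
      exact ⟨z', hz', e'.symm⟩
    have hfix := fix_of_stab hS hfa hZP hT hα haN hst s₀ (hLZ hs₀L)
    apply he1
    have hfix' : a * f * a⁻¹ = f := hfix
    rw [he, ht f hfP, hfix', mul_inv_cancel]
  -- `t₂` on `H`
  have ht₂H : ∀ w ∈ H, afn t₂ w = w := by
    intro w hw
    obtain ⟨z, hz, rfl⟩ := (hHmem w).1 hw
    rw [ht₂ _ (afn_mem α (hZP hz)), afn_inv_afn α (hZP hz), htZ z hz]
  -- the element `d`
  obtain ⟨ℓ', hℓ', hℓ'e, hℓ'1⟩ := ht₂mul e heP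
  set d := afn t₂ e * e⁻¹ with hd
  have hℓ'ne : ℓ' ≠ 1 := fun e1 => heH (hℓ'1 e1)
  have hdH : d ∈ H := by
    rw [hℓ'e]
    exact (hHmem _).2 ⟨ℓ', hLZ hℓ', rfl⟩
  have hdP : d ∈ P := hHP hdH
  have hd1 : d ^ p = 1 := by
    rw [hℓ'e, ← hm.map_pow (hLP hℓ'), pow_card_of_card hLc hℓ', hm.map_one]
  have hfd : f⁻¹ ∈ Subgroup.zpowers d := by
    obtain ⟨i, hi⟩ := Subgroup.mem_zpowers_iff.1 (hLgen ℓ' hℓ' hℓ'ne s₀ hs₀L)
    refine ⟨-i, ?_⟩
    show d ^ (-i) = f⁻¹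
    rw [hℓ'e, ← hm.map_zpow (hLP hℓ'), zpow_neg, hi, hf, hm.map_inv (hLP hs₀L)]
  obtain ⟨j, hj⟩ := exists_npow hd1 hfd
  -- powers of `t₂`
  have hpowH : ∀ i : ℕ, ∀ w ∈ H, afn (t₂ ^ i) w = w := by
    intro i
    induction i with
    | zero =>
      intro w hw
      exact afn_one (hHP hw)
    | succ i ih =>
      intro w hw
      rw [pow_succ', afn_mul _ _ (hHP hw), ih w hw, ht₂H w hw]
  have hed : afn t₂ e = d * e := by rw [hd]; group
  have hpowe : ∀ i : ℕ, afn (t₂ ^ i) e = e * d ^ i := by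
    intro i
    induction i with
    | zero =>
      simpa using afn_one heP
    | succ i ih =>
      rw [pow_succ', afn_mul _ _ heP, ih, hmt₂.map_mul heP (P.pow_mem hdP i), hed,
        ht₂H _ (H.pow_mem hdH i), pow_succ']
      have hc : d * e = e * d := hPc d hdP e heP
      rw [hc]
      group
  let t₃ : MulAut P := t₂ ^ j
  have ht₃X : t₃ ∈ F.autGroup P := Subgroup.pow_mem _ ht₂X j
  have hmt₃ := Maps_of_mem_autGroup hPS ht₃X
  have ht₃H : ∀ w ∈ H, afn t₃ w = w := hpowH j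
  have ht₃e : afn t₃ e = e * f⁻¹ := by
    show afn (t₂ ^ j) e = _
    rw [hpowe j, hj]
  have htf : afn t f = e * f := by rw [he]; group
  have hte : afn t e = e := htZ e (hLZ heL)
  -- the word
  let w : MulAut P := t * t₃ * t
  have hw : ∀ u ∈ P, afn w u = afn t (afn t₃ (afn t u)) := by
    intro u hu
    show afn (t * t₃ * t) u = _
    rw [afn_mul _ _ hu, afn_mul _ _ (afn_mem t hu)]
  have hwX : w ∈ F.autGroup P := Subgroup.mul_mem _ (Subgroup.mul_mem _ htX ht₃X) htX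
  have hmw := Maps_of_mem_autGroup hPS hwX
  have hfi : f⁻¹ ∈ P := P.inv_mem hfP
  have hwe : afn w e = f⁻¹ := by
    rw [hw e heP, hte, ht₃e, hmt.map_mul heP hfi, hte, hmt.map_inv hfP, htf]
    have hc : e * f = f * e := hPc e heP f hfP
    rw [hc]
    group
  have hwf : afn w f = e := by
    rw [hw f hfP, htf, hmt₃.map_mul heP hfP, ht₃e, ht₃H f hfH]
    have : e * f⁻¹ * f = e := by group
    rw [this, hte]
  let τ : MulAut P := w * w
  have hτX : τ ∈ F.autGroup P := Subgroup.mul_mem _ hwX hwX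
  have hmτ := Maps_of_mem_autGroup hPS hτX
  have hτ : ∀ u ∈ P, afn τ u = afn w (afn w u) := fun u hu => afn_mul _ _ hu
  have hτe : afn τ e = e⁻¹ := by
    rw [hτ e heP, hwe, hmw.map_inv hfP, hwf]
  have hτY : ∀ y ∈ Zc S, y ∈ H → afn τ y = y := by
    intro y hy hyH
    have h1 : afn w y = y := by
      rw [hw y (hZP hy), htZ y hy, ht₃H y hyH, htZ y hy]
    rw [hτ y (hZP hy), h1, h1]
  -- decomposition of `Z`
  have hHi : (H.subgroupOf P).index = p := by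
    have h2 : H.relIndex P = (Zc S).relIndex P := relIndex_eq_of_card hHP hZP (hm.restrict hZP).card_img
    have h3 : (Zc S).relIndex P = p := by
      rw [← hBZ]
      exact inf_index h hPS hx hxA
    show H.relIndex P = p
    rw [h2, h3]
  have hdec : ∀ z ∈ Zc S, ∃ y ∈ Zc S, y ∈ H ∧ ∃ i : ℕ, z = y * e ^ i := by
    intro z hz
    obtain ⟨y, hy, i, rfl⟩ := gen_of_index (hS.to_le hPS) hHi heP heH z (hZP hz)
    refine ⟨y, ?_, hy, i, rfl⟩
    have := (Zc S).mul_mem hz ((Zc S).inv_mem ((Zc S).pow_mem (hLZ heL) i))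
    simpa using this
  have hτz : ∀ y ∈ Zc S, y ∈ H → ∀ i : ℕ, afn τ (y * e ^ i) = y * (e⁻¹) ^ i := by
    intro y hy hyH i
    rw [hmτ.map_mul (hZP hy) (P.pow_mem heP i), hτY y hy hyH, hmτ.map_pow heP, hτe]
  have hτZ : ∀ z ∈ Zc S, afn τ z ∈ Zc S := by
    intro z hz
    obtain ⟨y, hy, hyH, i, rfl⟩ := hdec z hz
    rw [hτz y hy hyH i]
    exact (Zc S).mul_mem hy ((Zc S).pow_mem ((Zc S).inv_mem (hLZ heL)) i)
  have hmτZ := hmτ.restrict hZP
  have himg : img (afn τ) (Zc S) = Zc S := img_eq_of_card hmτZ (Zc_le S) (Zc_le S) hτZ le_rfl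
  refine ⟨hmτZ.toAut himg, ⟨hmτZ.toAut_mem himg, fun ℓ hℓ => ?_, fun z hz => ?_⟩, fun y hy => ?_⟩
  · rw [hmτZ.afn_toAut himg (hLZ hℓ)]
    obtain ⟨i, rfl⟩ := Subgroup.mem_zpowers_iff.1 (hLgen e heL he1 ℓ hℓ)
    rw [hmτ.map_zpow heP, hτe, inv_zpow]
  · rw [hmτZ.afn_toAut himg hz]
    obtain ⟨y, hy, hyH, i, rfl⟩ := hdec z hz
    rw [hτz y hy hyH i]
    have e1 : (y * e ^ i)⁻¹ * (y * (e⁻¹) ^ i) = (e ^ i)⁻¹ * (e⁻¹) ^ i := by group
    rw [e1]
    exact (Lc S).mul_mem ((Lc S).inv_mem ((Lc S).pow_mem heL i)) ((Lc S).pow_mem ((Lc S).inv_mem heL) i)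
  · rw [hmτZ.afn_toAut himg hy]
    constructor
    · intro hfix
      obtain ⟨y', hy', hyH', i, rfl⟩ := hdec y hy
      rw [hτz y' hy' hyH' i] at hfix
      have h1 : (e⁻¹) ^ i = e ^ i := mul_left_cancel hfix
      have h2 : e ^ i * e ^ i = 1 := by
        nth_rw 1 [← h1]
        rw [inv_pow]
        group
      have h3 := eq_one_of_sq hS hp (S.pow_mem (hPS heP) i) h2
      rw [h3, mul_one]
      exact hyH'
    · intro hyH
      exact hτY y hy hyH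

end Cfsg.Agent.Lib.FusionAbCore2
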