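import Mathlib
import Cfsg.Agent.Lib.FusionSimpleCrit

set_option autoImplicit false

/-!
# The simplicity criterion when the normalizer of the Sylow subgroup acts through inner automorphisms

If `N_G(S) = S C_G(S)` and no proper nontrivial subgroup of `S` is closed under `G`-fusion then the fusion system of `G` is
simple. The criterion is also transported to `G / Z(G)` when `S ∩ Z(G) = 1`.
-/

namespace Cfsg.Agent.Lib.FusionNormCent

open Cfsg Cfsg.FusionSystem Cfsg.Agent.Lib.FusionSatBasic Cfsg.Agent.Lib.FusionSat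
  Cfsg.Agent.Lib.FusionSimpleCrit

section
variable {G : Type*} [Group G] [Finite G] (p : ℕ) [Fact p.Prime]

/-- The criterion: every element normalizing the Sylow subgroup acts as an element of it. -/
theorem isSimple_of_normCent (S : Sylow p G) (hne : (S : Subgroup G) ≠ ⊥)
    (hcl : ∀ T : Subgroup G, T ≤ S → FusionClosed (S : Subgroup G) T → T = ⊥ ∨ T = S)
    (hN : ∀ g : G, (∀ s ∈ (S : Subgroup G), g * s * g⁻¹ ∈ (S : Subgroup G)) →
      ∃ s ∈ (S : Subgroup G), ∃ c : G, (∀ x ∈ (S : Subgroup G), c * x = x * c) ∧ g = s * c) :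
    (Cfsg.groupFusionSystem (S : Subgroup G)).IsSimple p := by
  classical
  have hF := Cfsg.Agent.S5076.result p S
  refine ⟨hF, hne, fun T E hE => ?_⟩
  obtain ⟨⟨hEsat, -, hinv⟩, -⟩ := hE
  have hsc := hinv.2.1
  rcases hcl T hsc.1 (fusionClosed_of_stronglyClosed hsc) with h | h
  · exact Or.inl h
  subst h
  refine Or.inr ⟨rfl, fun P => Set.Subset.antisymm (hinv.1 P) ?_⟩
  intro φ hφ
  obtain ⟨α, hα, φ₀, hφ₀, hfac⟩ := hinv.2.2.2 P (le_of_hom _ hφ) φ hφ
  have hαmem : α ∈ Cfsg.autInducedBy ⊤ (S : Subgroup G) := by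
    rwa [← Cfsg.Agent.S5076.autGroup_groupFusionSystem (S : Subgroup G) (S : Subgroup G) le_rfl]
  obtain ⟨g, -, hg⟩ := (mem_autInducedBy _ _ _).mp hαmem
  obtain ⟨s₀, hs₀, c, hc, hgs⟩ := hN g (by
    intro s hs
    rw [← hg ⟨s, hs⟩]
    exact (α ⟨s, hs⟩).2)
  have h1 := E.comp_mem hφ₀ (E.conj_mem (P := (S : Subgroup G)) le_rfl hs₀) (fun x => val_mem E hφ₀ x)
  refine hom_congr E h1 (fun x => ?_)
  rw [hfac x (val_mem E hφ₀ x), hg]
  have hcx := hc _ (val_mem E hφ₀ x)
  show g * (φ₀ x : G) * g⁻¹ = s₀ * (φ₀ x : G) * s₀⁻¹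
  rw [hgs, mul_inv_rev, mul_assoc s₀ c, hcx]
  group

/-- Transport of the hypotheses along conjugation: it is enough to check them for one Sylow subgroup. -/
theorem isSimple_of_normCent' (S₀ : Sylow p G) (hne : (S₀ : Subgroup G) ≠ ⊥)
    (hcl : ∀ T : Subgroup G, T ≤ S₀ → FusionClosed (S₀ : Subgroup G) T → T = ⊥ ∨ T = S₀)
    (hN : ∀ g : G, (∀ s ∈ (S₀ : Subgroup G), g * s * g⁻¹ ∈ (S₀ : Subgroup G)) →
      ∃ s ∈ (S₀ : Subgroup G), ∃ c : G, (∀ x ∈ (S₀ : Subgroup G), c * x = x * c) ∧ g = s * c)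
    (S : Sylow p G) : (Cfsg.groupFusionSystem (S : Subgroup G)).IsSimple p := by
  classical
  obtain ⟨h, rfl⟩ := MulAction.exists_smul_eq G S₀ S
  have hmem : ∀ x : G, x ∈ ((h • S₀ : Sylow p G) : Subgroup G) ↔ h⁻¹ * x * h ∈ (S₀ : Subgroup G) := by
    intro x
    rw [Sylow.coe_subgroup_smul, Subgroup.mem_pointwise_smul_iff_inv_smul_mem]
    simp [MulAut.smul_def]
  refine isSimple_of_normCent p (h • S₀) ?_ ?_ ?_
  · intro hb
    apply hne
    rw [eq_bot_iff]
    intro x hx
    have h1 : h * x * h⁻¹ ∈ ((h • S₀ : Sylow p G) : Subgroup G) := by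
      rw [hmem]
      simpa [mul_assoc] using hx
    rw [hb, Subgroup.mem_bot] at h1
    rw [Subgroup.mem_bot]
    have := congrArg (fun y => h⁻¹ * y * h) h1
    simpa [mul_assoc] using this
  · intro T hT hTc
    let T' : Subgroup G := T.map (MulAut.conj h⁻¹).toMonoidHom
    have hT'mem : ∀ x, x ∈ T' ↔ h * x * h⁻¹ ∈ T := by
      intro x
      constructor
      · rintro ⟨y, hy, rfl⟩
        simpa [MulAut.conj_apply, mul_assoc] using hy
      · intro hx
        refine ⟨_, hx, ?_⟩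
        simp [mul_assoc]
    have hT'le : T' ≤ S₀ := by
      intro x hx
      have := hT ((hT'mem x).1 hx)
      rw [hmem] at this
      simpa [mul_assoc] using this
    have hT'c : FusionClosed (S₀ : Subgroup G) T' := by
      intro t ht g hg
      rw [hT'mem] at ht ⊢
      have h1 := hTc _ ht (h * g * h⁻¹) (by
        rw [hmem]
        simpa [mul_assoc] using hg)
      simpa [mul_assoc] using h1
    rcases hcl T' hT'le hT'c with h0 | h0
    · left
      rw [eq_bot_iff]
      intro x hx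
      have h1 : h⁻¹ * x * h ∈ T' := by
        rw [hT'mem]
        simpa [mul_assoc] using hx
      rw [h0, Subgroup.mem_bot] at h1
      rw [Subgroup.mem_bot]
      have := congrArg (fun y => h * y * h⁻¹) h1
      simpa [mul_assoc] using this
    · right
      apply le_antisymm hT
      intro x hx
      rw [hmem] at hx
      have h1 : h⁻¹ * x * h ∈ T' := by
        rw [h0]; exact hx
      rw [hT'mem] at h1
      simpa [mul_assoc] using h1
  · intro g hg
    obtain ⟨s, hs, c, hc, hgs⟩ := hN (h⁻¹ * g * h) (by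
      intro s hs
      have h1 := hg (h * s * h⁻¹) (by
        rw [hmem]
        simpa [mul_assoc] using hs)
      rw [hmem] at h1
      simpa [mul_assoc] using h1)
    refine ⟨h * s * h⁻¹, ?_, h * c * h⁻¹, ?_, ?_⟩
    · rw [hmem]
      simpa [mul_assoc] using hs
    · intro x hx
      rw [hmem] at hx
      have := hc _ hx
      calc h * c * h⁻¹ * x = h * (c * (h⁻¹ * x * h)) * h⁻¹ := by group
        _ = h * ((h⁻¹ * x * h) * c) * h⁻¹ := by rw [this]
        _ = x * (h * c * h⁻¹) := by group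
    · calc g = h * (h⁻¹ * g * h) * h⁻¹ := by group
        _ = h * (s * c) * h⁻¹ := by rw [hgs]
        _ = h * s * h⁻¹ * (h * c * h⁻¹) := by group

/-- In a group with Sylow subgroup `P`, a central `p`-element lies in `P`. -/
theorem mem_sylow_of_central (P : Sylow p G) {κ : G} (hκ : ∀ g : G, g * κ = κ * g) {k : ℕ}
    (hk : κ ^ p ^ k = 1) : κ ∈ (P : Subgroup G) := by
  have hZ : IsPGroup p (Subgroup.zpowers κ) := by
    rintro ⟨x, n, rfl⟩
    refine ⟨k, Subtype.ext ?_⟩
    show (κ ^ n) ^ p ^ k = 1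
    rw [← zpow_natCast, ← zpow_mul, mul_comm, zpow_mul, zpow_natCast, hk, one_zpow]
  have hN : (Subgroup.zpowers κ).Normal := by
    refine ⟨?_⟩
    rintro _ ⟨n, rfl⟩ g
    refine ⟨n, ?_⟩
    show κ ^ n = g * κ ^ n * g⁻¹
    have : Commute g (κ ^ n) := (show Commute g κ from hκ g).zpow_right n
    rw [this.eq]; group
  have h1 : IsPGroup p ↥((P : Subgroup G) ⊔ Subgroup.zpowers κ : Subgroup G) :=
    P.isPGroup'.to_sup_of_normal_right hZ
  have h2 := P.is_maximal' h1 le_sup_left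
  have h3 : κ ∈ ((P : Subgroup G) ⊔ Subgroup.zpowers κ) :=
    (le_sup_right : Subgroup.zpowers κ ≤ _) (Subgroup.mem_zpowers κ)
  rwa [h2] at h3

/-- Simplicity for `G / Z(G)` from the data for a Sylow subgroup of `G` that meets `Z(G)` trivially. -/
theorem isSimple_center_quot (P : Sylow p G) (hne : (P : Subgroup G) ≠ ⊥)
    (hZ : ∀ x ∈ (P : Subgroup G), (∀ g : G, g * x = x * g) → x = 1)
    (hcl : ∀ R : Subgroup G, R ≤ P → (∀ r ∈ R, ∀ g : G, g * r * g⁻¹ ∈ (P : Subgroup G) → g * r * g⁻¹ ∈ R) →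
      R = ⊥ ∨ R = P)
    (hN : ∀ g : G, (∀ s ∈ (P : Subgroup G), g * s * g⁻¹ ∈ (P : Subgroup G)) →
      ∃ s ∈ (P : Subgroup G), ∃ c : G, (∀ x ∈ (P : Subgroup G), c * x = x * c) ∧ g = s * c)
    (S : Sylow p (G ⧸ Subgroup.center G)) :
    (Cfsg.groupFusionSystem (S : Subgroup (G ⧸ Subgroup.center G))).IsSimple p := by
  classical
  let π : G →* G ⧸ Subgroup.center G := QuotientGroup.mk' _
  have hπ : Function.Surjective π := QuotientGroup.mk'_surjective _
  have hker : ∀ x y : G, π x = π y → ∃ k, (∀ g : G, g * k = k * g) ∧ y = x * k := by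
    intro x y hxy
    have : x⁻¹ * y ∈ Subgroup.center G := QuotientGroup.eq.mp hxy
    refine ⟨x⁻¹ * y, fun g => (Subgroup.mem_center_iff.mp this g), by group⟩
  let S₀ : Sylow p (G ⧸ Subgroup.center G) := P.mapSurjective hπ
  have hS₀ : (S₀ : Subgroup (G ⧸ Subgroup.center G)) = (P : Subgroup G).map π := Sylow.coe_mapSurjective _ _
  have hPp := P.isPGroup'
  refine isSimple_of_normCent' p S₀ ?_ ?_ ?_ S
  · rw [hS₀]
    intro hb
    apply hne
    rw [eq_bot_iff]
    intro x hx
    have h1 : π x ∈ (P : Subgroup G).map π := ⟨x, hx, rfl⟩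
    rw [hb, Subgroup.mem_bot] at h1
    have h2 : x ∈ Subgroup.center G := (QuotientGroup.eq_one_iff x).mp h1
    rw [Subgroup.mem_bot]
    exact hZ x hx (fun g => Subgroup.mem_center_iff.mp h2 g)
  · intro T hT hTc
    rw [hS₀] at hT hTc ⊢
    let R : Subgroup G := T.comap π ⊓ (P : Subgroup G)
    have hRc : ∀ r ∈ R, ∀ g : G, g * r * g⁻¹ ∈ (P : Subgroup G) → g * r * g⁻¹ ∈ R := by
      intro r hr g hg
      refine ⟨?_, hg⟩
      have := hTc (π r) hr.1 (π g) ⟨_, hg, by simp⟩
      simpa using this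
    rcases hcl R inf_le_right hRc with h0 | h0
    · left
      rw [eq_bot_iff]
      intro x hx
      obtain ⟨y, hy, rfl⟩ := hT hx
      have : y ∈ R := ⟨hx, hy⟩
      rw [h0, Subgroup.mem_bot] at this
      rw [this, map_one]
      exact Subgroup.one_mem _
    · right
      apply le_antisymm hT
      rintro _ ⟨y, hy, rfl⟩
      have : y ∈ R := by rw [h0]; exact hy
      exact this.1
  · intro gb hgb
    obtain ⟨g, rfl⟩ := hπ gb
    have hgn : ∀ s ∈ (P : Subgroup G), g * s * g⁻¹ ∈ (P : Subgroup G) := by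
      intro s hs
      have h1 : π g * π s * (π g)⁻¹ ∈ (S₀ : Subgroup (G ⧸ Subgroup.center G)) := hgb _ (by
        rw [hS₀]; exact ⟨s, hs, rfl⟩)
      rw [hS₀] at h1
      obtain ⟨s', hs', he⟩ := h1
      obtain ⟨k, hk, hgk⟩ := hker s' (g * s * g⁻¹) (by simpa using he)
      have hke : k = 1 := by
        apply hZ k _ hk
        obtain ⟨m, hm⟩ := hPp ⟨s', hs'⟩
        obtain ⟨m', hm'⟩ := hPp ⟨s, hs⟩
        have hm1 : s' ^ p ^ m = 1 := by simpa using congrArg Subtype.val hm
        have hm2 : s ^ p ^ m' = 1 := by simpa using congrArg Subtype.val hm'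
        apply mem_sylow_of_central p P hk (k := m + m')
        have hc : Commute s' k := hk s'
        have h3 : (s' * k) ^ p ^ (m + m') = 1 := by
          rw [← hgk, conj_pow, pow_add, mul_comm (p ^ m), pow_mul, hm2, one_pow]
          group
        rw [hc.mul_pow, pow_add, pow_mul, hm1, one_pow, one_mul] at h3
        rw [pow_add]
        exact h3
      subst hke
      rw [mul_one] at hgk
      rw [hgk]
      exact hs'
    obtain ⟨s, hs, c, hc, hgs⟩ := hN g hgn
    refine ⟨π s, ?_, π c, ?_, ?_⟩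
    · rw [hS₀]; exact ⟨s, hs, rfl⟩
    · intro x hx
      rw [hS₀] at hx
      obtain ⟨y, hy, rfl⟩ := hx
      rw [← map_mul, ← map_mul, hc y hy]
    · rw [hgs, map_mul]

end

/-- A `p`-subgroup containing every `p`-element of its normalizer is a Sylow subgroup. -/
theorem exists_sylow_eq_of_normalizer {G : Type*} [Group G] [Finite G] (p : ℕ) [Fact p.Prime] (P : Subgroup G)
    (hP : IsPGroup p P)
    (hN : ∀ g : G, (∀ s ∈ P, g * s * g⁻¹ ∈ P) → (∃ k : ℕ, g ^ p ^ k = 1) → g ∈ P) :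
    ∃ S : Sylow p G, (S : Subgroup G) = P := by
  obtain ⟨S, hS⟩ := hP.exists_le_sylow
  refine ⟨S, ?_⟩
  by_contra hne
  -- work in `S`
  have hnil : Group.IsNilpotent (S : Subgroup G) := S.isPGroup'.isNilpotent
  have hlt : P.subgroupOf (S : Subgroup G) < ⊤ := by
    refine lt_top_iff_ne_top.mpr fun h => hne ?_
    apply le_antisymm _ hS
    intro x hx
    have : (⟨x, hx⟩ : (S : Subgroup G)) ∈ P.subgroupOf (S : Subgroup G) := by rw [h]; trivial
    exact this
  have h1 := Group.normalizerCondition_of_isNilpotent _ hlt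
  obtain ⟨x, hx, hxn⟩ := SetLike.exists_of_lt h1
  apply hxn
  rw [Subgroup.mem_subgroupOf]
  apply hN
  · intro s hs
    have h2 : (⟨s, hS hs⟩ : (S : Subgroup G)) ∈ P.subgroupOf (S : Subgroup G) := hs
    have h3 := (Subgroup.mem_normalizer_iff.mp hx _).mp h2
    exact h3
  · obtain ⟨k, hk⟩ := S.isPGroup' x
    exact ⟨k, by simpa using congrArg Subtype.val hk⟩

end Cfsg.Agent.Lib.FusionNormCent
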