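import Mathlib
import Cfsg.Agent.Lib.FusionNormCent
import Cfsg.Agent.Lib.FusionSimpleGen
import Cfsg.Agent.Lib.PSLFusionBasic

set_option autoImplicit false

/-!
# The simplicity criterion for `G / Z(G)` when the Sylow subgroup of `G` contains `Z(G)`
-/

namespace Cfsg.Agent.Lib.FusionCenterGen

open Cfsg Cfsg.Agent.Lib.FusionSimpleCrit Cfsg.Agent.Lib.FusionSimpleGen Cfsg.Agent.Lib.PSLFusionBasic

variable {G : Type*} [Group G] [Finite G] (p : ℕ) [Fact p.Prime]

/-- The criterion. -/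
theorem isSimple_center_quot_gen (P : Sylow p G) (hZP : Subgroup.center G ≤ (P : Subgroup G))
    (hne : (P : Subgroup G) ≠ Subgroup.center G)
    (hcl : ∀ R : Subgroup G, Subgroup.center G ≤ R → R ≤ P →
      (∀ r ∈ R, ∀ g : G, g * r * g⁻¹ ∈ (P : Subgroup G) → g * r * g⁻¹ ∈ R) → R = Subgroup.center G ∨ R = P)
    (X : Set G)
    (hX : ∀ x ∈ X, (∀ s ∈ (P : Subgroup G), x * s * x⁻¹ ∈ (P : Subgroup G)) ∧
      ∃ R : Subgroup G, Subgroup.center G ≤ R ∧ R ≤ P ∧
        (∀ c : G, (∀ r ∈ R, c * r * c⁻¹ * r⁻¹ ∈ Subgroup.center G) → c ∈ R) ∧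
        x ∈ Subgroup.closure {w : G | (∀ r ∈ R, w * r * w⁻¹ ∈ R) ∧ ∃ k : ℕ, w ^ p ^ k ∈ Subgroup.center G})
    (hN : ∀ g : G, (∀ s ∈ (P : Subgroup G), g * s * g⁻¹ ∈ (P : Subgroup G)) →
      g ∈ Subgroup.closure (((P : Subgroup G) : Set G) ∪ X))
    (S : Sylow p (G ⧸ Subgroup.center G)) :
    (Cfsg.groupFusionSystem (S : Subgroup (G ⧸ Subgroup.center G))).IsSimple p := by
  classical
  have hpp : p.Prime := Fact.out
  let π : G →* G ⧸ Subgroup.center G := QuotientGroup.mk' _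
  have hπ : Function.Surjective π := QuotientGroup.mk'_surjective _
  have hker : ∀ x y : G, π x = π y → x⁻¹ * y ∈ Subgroup.center G := fun x y h => QuotientGroup.eq.mp h
  have hker1 : ∀ x : G, π x = 1 ↔ x ∈ Subgroup.center G := fun x => QuotientGroup.eq_one_iff x
  let S₀ : Sylow p (G ⧸ Subgroup.center G) := P.mapSurjective hπ
  have hS₀ : (S₀ : Subgroup (G ⧸ Subgroup.center G)) = (P : Subgroup G).map π := Sylow.coe_mapSurjective _ _
  -- preimages
  have hcomap : ∀ x : G, π x ∈ (P : Subgroup G).map π → x ∈ (P : Subgroup G) := by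
    rintro x ⟨y, hy, he⟩
    have h1 := hker y x he
    have : x = y * (y⁻¹ * x) := by group
    rw [this]
    exact (P : Subgroup G).mul_mem hy (hZP h1)
  refine isSimple_of_generated' p S₀ ?_ ?_ (π '' X) ?_ ?_ S
  · rw [hS₀]
    intro hb
    apply hne
    apply le_antisymm _ hZP
    intro x hx
    have h1 : π x ∈ (P : Subgroup G).map π := ⟨x, hx, rfl⟩
    rw [hb, Subgroup.mem_bot] at h1
    exact (hker1 x).mp h1
  · intro T hT hTc
    rw [hS₀] at hT hTc ⊢
    have hRZ : Subgroup.center G ≤ T.comap π := by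
      intro x hx
      rw [Subgroup.mem_comap, (hker1 x).mpr hx]
      exact T.one_mem
    have hRP : T.comap π ≤ (P : Subgroup G) := fun x hx => hcomap x (hT hx)
    rcases hcl (T.comap π) hRZ hRP (by
      intro r hr g hg
      rw [Subgroup.mem_comap, map_mul, map_mul, map_inv]
      exact hTc _ hr _ (by
        rw [← map_inv, ← map_mul, ← map_mul]
        exact ⟨_, hg, rfl⟩)) with h0 | h0
    · left
      rw [eq_bot_iff]
      intro x hx
      obtain ⟨y, -, rfl⟩ := hT hx
      have : y ∈ T.comap π := hx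
      rw [h0] at this
      rw [Subgroup.mem_bot]
      exact (hker1 y).mpr this
    · right
      apply le_antisymm hT
      rintro _ ⟨y, hy, rfl⟩
      have : y ∈ T.comap π := by rw [h0]; exact hy
      exact this
  · rintro _ ⟨x, hx, rfl⟩
    obtain ⟨hxP, R, hRZ, hRP, hRc, hxcl⟩ := hX x hx
    refine ⟨?_, R.map π, ?_, ?_, ?_⟩
    · rw [hS₀]
      rintro _ ⟨s, hs, rfl⟩
      rw [← map_inv, ← map_mul, ← map_mul]
      exact ⟨_, hxP s hs, rfl⟩
    · rw [hS₀]
      exact Subgroup.map_mono hRP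
    · intro c hc
      obtain ⟨c, rfl⟩ := hπ c
      refine ⟨c, hRc c fun r hr => ?_, rfl⟩
      have h1 := hc (π r) ⟨r, hr, rfl⟩
      rw [← hker1, map_mul, map_mul, map_mul, map_inv, map_inv, h1]
      group
    · have h1 : π x ∈ (Subgroup.closure {w : G | (∀ r ∈ R, w * r * w⁻¹ ∈ R) ∧ ∃ k : ℕ, w ^ p ^ k ∈ Subgroup.center G}).map π :=
        ⟨x, hxcl, rfl⟩
      rw [MonoidHom.map_closure] at h1
      refine (Subgroup.closure_mono ?_) h1
      rintro _ ⟨w, ⟨hw, k, hk⟩, rfl⟩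
      refine ⟨?_, ?_⟩
      · rw [Subgroup.mem_normalizer_iff]
        intro n
        constructor
        · rintro ⟨r, hr, rfl⟩
          rw [← map_inv, ← map_mul, ← map_mul]
          exact ⟨_, hw r hr, rfl⟩
        · rintro ⟨r, hr, hre⟩
          have h2 : n = π (w⁻¹ * r * w) := by
            rw [map_mul, map_mul, map_inv, hre]
            group
          rw [h2]
          exact ⟨_, conj_inv_mem_of_finite (R : Set G) hw r hr, rfl⟩
      · have h2 : (π w) ^ p ^ k = 1 := by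
          rw [← map_pow]
          exact (hker1 _).mpr hk
        have h3 := orderOf_dvd_of_pow_eq_one h2
        obtain ⟨j, -, hj⟩ := (Nat.dvd_prime_pow hpp).mp h3
        exact ⟨j, hj⟩
  · intro gb hgb
    obtain ⟨g, rfl⟩ := hπ gb
    have hgn : ∀ s ∈ (P : Subgroup G), g * s * g⁻¹ ∈ (P : Subgroup G) := by
      intro s hs
      apply hcomap
      have h1 : π g * π s * (π g)⁻¹ ∈ (S₀ : Subgroup (G ⧸ Subgroup.center G)) := hgb _ (by
        rw [hS₀]; exact ⟨s, hs, rfl⟩)
      rw [hS₀] at h1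
      rw [map_mul, map_mul, map_inv]
      exact h1
    have h1 : π g ∈ (Subgroup.closure (((P : Subgroup G) : Set G) ∪ X)).map π := ⟨g, hN g hgn, rfl⟩
    rw [MonoidHom.map_closure] at h1
    refine (Subgroup.closure_mono ?_) h1
    rintro _ ⟨y, hy | hy, rfl⟩
    · left
      show π y ∈ (S₀ : Subgroup (G ⧸ Subgroup.center G))
      rw [hS₀]
      exact ⟨y, hy, rfl⟩
    · right
      exact ⟨y, hy, rfl⟩

end Cfsg.Agent.Lib.FusionCenterGen
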