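/-
FusionCompG: a transfer lemma for a normal abelian `p`-subgroup `K` on which the group acts trivially modulo a `p`-subgroup `R`.
-/
import Mathlib
import Cfsg.Agent.Lib.FusionHyperfocal
import Cfsg.Agent.Lib.FusionFocal

set_option autoImplicit false
set_option linter.unusedSectionVars false
set_option linter.unusedVariables false
set_option linter.unusedSimpArgs false

namespace Cfsg.Agent.Lib.FusionCompG

open Cfsg MulAction Subgroup

variable {G : Type*} [Group G] [Finite G] {p : ℕ} [hp : Fact p.Prime]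

lemma eq_one_of_pow_of_coprime {A : Type*} [Group A] (hA : IsPGroup p A) {a : A} {n : ℕ} (h : a ^ n = 1) (hn : n.Coprime p) : a = 1 := by
  obtain ⟨j, hj⟩ := hA a
  have h1 : orderOf a ∣ n := orderOf_dvd_of_pow_eq_one h
  have h2 : orderOf a ∣ p ^ j := orderOf_dvd_of_pow_eq_one hj
  have h3 : orderOf a ∣ Nat.gcd n (p ^ j) := Nat.dvd_gcd h1 h2
  rw [Nat.Coprime.gcd_eq_one (Nat.Coprime.pow_right j hn), Nat.dvd_one] at h3
  exact orderOf_eq_one_iff.1 h3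

section Main

variable (R K : Subgroup G) [hKn : K.Normal]

theorem transfer_core (hKab : ∀ a ∈ K, ∀ b ∈ K, a * b = b * a) (hWp : IsPGroup p ↥(R ⊔ K)) (hidx : (R ⊔ K).index.Coprime p)
    (hcomm : ∀ a : G, ∀ k ∈ K, a * k * a⁻¹ * k⁻¹ ∈ R)
    (hR : ∀ a : G, ∀ r ∈ R, a * r * a⁻¹ ∈ R ⊔ K → a * r * a⁻¹ ∈ R) :
    ∀ k ∈ K, k ∈ R ⊔ pResidual p G → k ∈ R := by
  classical
  obtain ⟨H, hH⟩ : ∃ H, H = R ⊔ K := ⟨_, rfl⟩
  rw [← hH] at hWp hidx hR
  have hRH : R ≤ H := hH ▸ le_sup_left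
  have hKH : K ≤ H := hH ▸ le_sup_right
  have hKconj : ∀ k ∈ K, ∀ r ∈ R, k * r * k⁻¹ ∈ R := by
    intro k hk r hr
    have h1 := R.inv_mem (hcomm r k hk)
    have e : k * r * k⁻¹ = (r * k * r⁻¹ * k⁻¹)⁻¹ * r := by group
    rw [e]
    exact R.mul_mem h1 hr
  have hmemH : ∀ x ∈ H, ∃ r ∈ R, ∃ k ∈ K, r * k = x := by
    intro x hx
    rw [hH] at hx
    exact Subgroup.mem_sup_of_normal_right.1 hx
  let R' : Subgroup H := R.subgroupOf H
  haveI hR' : R'.Normal := by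
    refine ⟨fun n hn g => ?_⟩
    obtain ⟨r₁, hr₁, k₁, hk₁, e₁⟩ := hmemH g g.2
    have hn' : (n : G) ∈ R := hn
    refine Subgroup.mem_subgroupOf.2 ?_
    show (g : G) * n * (g : G)⁻¹ ∈ R
    rw [← e₁]
    have h1 := hKconj k₁ hk₁ _ hn'
    have e : r₁ * k₁ * (n : G) * (r₁ * k₁)⁻¹ = r₁ * (k₁ * n * k₁⁻¹) * r₁⁻¹ := by group
    rw [e]
    exact R.mul_mem (R.mul_mem hr₁ h1) (R.inv_mem hr₁)
  have hmk : ∀ x y : H, (x : G) * (y : G)⁻¹ ∈ R → (QuotientGroup.mk' R' x : H ⧸ R') = QuotientGroup.mk' R' y := by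
    intro x y hxy
    have h1 : x * y⁻¹ ∈ R' := Subgroup.mem_subgroupOf.2 hxy
    have h2 : QuotientGroup.mk' R' (x * y⁻¹) = 1 := (QuotientGroup.eq_one_iff _).2 h1
    rw [map_mul, map_inv, mul_inv_eq_one] at h2
    exact h2
  have hcommQ : ∀ a b : H ⧸ R', a * b = b * a := by
    intro a b
    obtain ⟨x, rfl⟩ := QuotientGroup.mk'_surjective R' a
    obtain ⟨y, rfl⟩ := QuotientGroup.mk'_surjective R' b
    obtain ⟨r₁, hr₁, k₁, hk₁, e₁⟩ := hmemH x x.2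
    obtain ⟨r₂, hr₂, k₂, hk₂, e₂⟩ := hmemH y y.2
    rw [← map_mul, ← map_mul]
    apply hmk
    show (x : G) * y * ((y : G) * x)⁻¹ ∈ R
    rw [← e₁, ← e₂]
    have h1 := hKconj k₁ hk₁ _ hr₂
    have h3 := hKconj k₂ hk₂ _ hr₁
    have h4 := hKab k₁ hk₁ k₂ hk₂
    have e : r₁ * k₁ * (r₂ * k₂) * (r₂ * k₂ * (r₁ * k₁))⁻¹ = r₁ * (k₁ * r₂ * k₁⁻¹) * (k₂ * r₁⁻¹ * k₂⁻¹) * r₂⁻¹ := by
      calc r₁ * k₁ * (r₂ * k₂) * (r₂ * k₂ * (r₁ * k₁))⁻¹ = r₁ * (k₁ * r₂ * k₁⁻¹) * (k₁ * k₂) * k₁⁻¹ * r₁⁻¹ * k₂⁻¹ * r₂⁻¹ := by group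
        _ = r₁ * (k₁ * r₂ * k₁⁻¹) * (k₂ * k₁) * k₁⁻¹ * r₁⁻¹ * k₂⁻¹ * r₂⁻¹ := by rw [h4]
        _ = r₁ * (k₁ * r₂ * k₁⁻¹) * (k₂ * r₁⁻¹ * k₂⁻¹) * r₂⁻¹ := by group
    rw [e]
    have h5 := hKconj k₂ hk₂ _ (R.inv_mem hr₁)
    exact R.mul_mem (R.mul_mem (R.mul_mem hr₁ h1) h5) (R.inv_mem hr₂)
  letI : CommGroup (H ⧸ R') := { (QuotientGroup.Quotient.group R') with mul_comm := hcommQ }
  let ϕ : H →* H ⧸ R' := QuotientGroup.mk' R'
  have hAp : IsPGroup p (H ⧸ R') := hWp.to_quotient R'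
  haveI : H.FiniteIndex := inferInstance
  let τ : G →* H ⧸ R' := MonoidHom.transfer ϕ
  have hϕR : ∀ x : H, (x : G) ∈ R → ϕ x = 1 := fun x hx => (QuotientGroup.eq_one_iff _).2 (Subgroup.mem_subgroupOf.2 hx)
  have hτp : ∀ y ∈ pResidual p G, τ y = 1 := by
    intro y hy
    have h1 : pResidual p G ≤ τ.ker := by
      rw [pResidual, Subgroup.closure_le]
      intro x hx
      have h2 : (τ x) ^ orderOf x = 1 := by rw [← map_pow, pow_orderOf_eq_one, map_one]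
      exact MonoidHom.mem_ker.2 (eq_one_of_pow_of_coprime hAp h2 hx)
    exact MonoidHom.mem_ker.1 (h1 hy)
  haveI : Fintype (Quotient (orbitRel (zpowers (1 : G)) (G ⧸ H))) := Fintype.ofFinite _
  have hτR : ∀ r ∈ R, τ r = 1 := by
    intro r hr
    haveI : Fintype (Quotient (orbitRel (zpowers r) (G ⧸ H))) := Fintype.ofFinite _
    show MonoidHom.transfer ϕ r = 1
    rw [MonoidHom.transfer_eq_prod_quotient_orbitRel_zpowers_quot]
    refine Finset.prod_eq_one (fun q _ => ?_)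
    apply hϕR
    have hm := QuotientGroup.out_conj_pow_minimalPeriod_mem H r q.out
    have h := hR (q.out.out⁻¹) _ (R.pow_mem hr (Function.minimalPeriod (r • ·) q.out))
    rw [inv_inv] at h
    exact h (hH ▸ hm)
  have hτK : ∀ (k : G) (hk : k ∈ K), τ k = (ϕ ⟨k, hKH hk⟩) ^ H.index := by
    intro k hk
    haveI : Fintype (Quotient (orbitRel (zpowers k) (G ⧸ H))) := Fintype.ofFinite _
    show MonoidHom.transfer ϕ k = _
    rw [MonoidHom.transfer_eq_prod_quotient_orbitRel_zpowers_quot, index_eq_sum_minimalPeriod H k, ← Finset.prod_pow_eq_pow_sum]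
    refine Finset.prod_congr rfl (fun q _ => ?_)
    rw [← map_pow]
    apply hmk
    have h1 := hcomm (q.out.out⁻¹) _ (K.pow_mem hk (Function.minimalPeriod (k • ·) q.out))
    simp only [Subgroup.coe_pow, inv_inv] at h1 ⊢
    exact h1
  intro k hk hkX
  have h1 : τ k = 1 := by
    have hle : R ⊔ pResidual p G ≤ τ.ker := sup_le (fun r hr => MonoidHom.mem_ker.2 (hτR r hr)) (fun y hy => MonoidHom.mem_ker.2 (hτp y hy))
    exact MonoidHom.mem_ker.1 (hle hkX)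
  rw [hτK k hk] at h1
  have h2 : ϕ ⟨k, hKH hk⟩ = 1 := eq_one_of_pow_of_coprime hAp h1 hidx
  exact Subgroup.mem_subgroupOf.1 ((QuotientGroup.eq_one_iff _).1 h2)

/-- Structure: `X = R O^p(G)` is normal, and `X ∩ RK = R`. -/
theorem transfer_main (hKab : ∀ a ∈ K, ∀ b ∈ K, a * b = b * a) (hWp : IsPGroup p ↥(R ⊔ K)) (hidx : (R ⊔ K).index.Coprime p)
    (hcomm : ∀ a : G, ∀ k ∈ K, a * k * a⁻¹ * k⁻¹ ∈ R)
    (hR : ∀ a : G, ∀ r ∈ R, a * r * a⁻¹ ∈ R ⊔ K → a * r * a⁻¹ ∈ R) :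
    (∀ k ∈ K, k ∈ R ⊔ pResidual p G → k ∈ R) ∧ (∀ g : G, ∃ x ∈ R ⊔ pResidual p G, ∃ k ∈ K, g = x * k) ∧
      ∀ Q : Subgroup G, Q ≤ R ⊔ pResidual p G → IsPGroup p Q → R ≤ Q → Q = R := by
  classical
  have hcore := transfer_core R K hKab hWp hidx hcomm hR
  have hp' : ¬ p ∣ (R ⊔ K).index := by
    intro h
    have := Nat.Coprime.eq_one_of_dvd hidx.symm h
    exact (Fact.out : p.Prime).one_lt.ne' this
  let W : Sylow p G := hWp.toSylow hp'
  have hW : (W : Subgroup G) = R ⊔ K := IsPGroup.toSylow_coe hWp hp'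
  have hsplit : ∀ g : G, ∃ x ∈ R ⊔ pResidual p G, ∃ k ∈ K, g = x * k := by
    intro g
    obtain ⟨κ, hκ, w, hw, rfl⟩ := Cfsg.Agent.Lib.FusionHyperfocal.exists_pResidual_mul_sylow W g
    rw [hW] at hw
    obtain ⟨r, hr, k, hk, rfl⟩ := Subgroup.mem_sup_of_normal_right.1 hw
    refine ⟨κ * r, Subgroup.mul_mem _ (Subgroup.mem_sup_right hκ) (Subgroup.mem_sup_left hr), k, hk, ?_⟩
    group
  refine ⟨hcore, hsplit, fun Q hQX hQp hRQ => ?_⟩
  have hKconj : ∀ k ∈ K, ∀ r ∈ R, k * r * k⁻¹ ∈ R := by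
    intro k hk r hr
    have h1 := R.inv_mem (hcomm r k hk)
    have e : k * r * k⁻¹ = (r * k * r⁻¹ * k⁻¹)⁻¹ * r := by group
    rw [e]
    exact R.mul_mem h1 hr
  haveI hPn : (pResidual p G).Normal := Cfsg.Agent.Lib.PResid.pResidual_normal p
  -- `X` is normal
  have hXn : ∀ g : G, ∀ x ∈ R ⊔ pResidual p G, g * x * g⁻¹ ∈ R ⊔ pResidual p G := by
    intro g x hx
    obtain ⟨x₁, hx₁, k, hk, rfl⟩ := hsplit g
    have h1 : k * x * k⁻¹ ∈ R ⊔ pResidual p G := by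
      obtain ⟨r, hr, y, hy, rfl⟩ := Subgroup.mem_sup_of_normal_right.1 hx
      have e : k * (r * y) * k⁻¹ = (k * r * k⁻¹) * (k * y * k⁻¹) := by group
      rw [e]
      exact Subgroup.mul_mem _ (Subgroup.mem_sup_left (hKconj k hk r hr)) (Subgroup.mem_sup_right (hPn.conj_mem y hy k))
    have e : x₁ * k * x * (x₁ * k)⁻¹ = x₁ * (k * x * k⁻¹) * x₁⁻¹ := by group
    rw [e]
    exact Subgroup.mul_mem _ (Subgroup.mul_mem _ hx₁ h1) (Subgroup.inv_mem _ hx₁)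
  -- every conjugate of `Q` in `W` lies in `R`
  obtain ⟨P, hP⟩ := hQp.exists_le_sylow
  obtain ⟨g, hg⟩ := MulAction.exists_smul_eq G P W
  have hc : ∀ x ∈ Q, g * x * g⁻¹ ∈ R := by
    intro x hx
    have hm : g * x * g⁻¹ ∈ ((g • P : Sylow p G) : Subgroup G) := by
      rw [Sylow.coe_subgroup_smul]
      exact Subgroup.smul_mem_pointwise_smul x (MulAut.conj g) _ (hP hx)
    rw [hg, hW] at hm
    obtain ⟨r, hr, k, hk, e⟩ := Subgroup.mem_sup_of_normal_right.1 hm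
    have h1 := hXn g x (hQX hx)
    have h2 : k ∈ R ⊔ pResidual p G := by
      have e2 : k = r⁻¹ * (g * x * g⁻¹) := by rw [← e]; group
      rw [e2]
      exact Subgroup.mul_mem _ (Subgroup.mem_sup_left (R.inv_mem hr)) h1
    rw [← e]
    exact R.mul_mem hr (hcore k hk h2)
  have hcard : Nat.card Q ≤ Nat.card R := by
    refine Nat.card_le_card_of_injective (fun x : Q => (⟨g * x * g⁻¹, hc x x.2⟩ : R)) ?_
    intro a b h
    have := congrArg Subtype.val h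
    simp only [mul_left_inj, mul_right_inj] at this
    exact Subtype.ext this
  exact (Subgroup.eq_of_le_of_card_ge hRQ hcard).symm

end Main

end Cfsg.Agent.Lib.FusionCompG
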