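/-
FusionConstrSub: normal subsystems of the fusion system of a finite group with `C_G(O_p G) ≤ O_p G` (S5121).
-/
import Mathlib
import Cfsg.Agent.Lib.FusionCore
import Cfsg.Agent.Lib.FusionCore2
import Cfsg.Agent.Lib.FusionAlperin
import Cfsg.Agent.Lib.FusionIndexPrime
import Cfsg.Agent.Lib.FusionInvariant
import Cfsg.Agent.Lib.FusionNormalSub
import Cfsg.Agent.Lib.PCore
import Cfsg.Agent.Lib.PResid
import Cfsg.Agent.Lib.SylowNum

set_option autoImplicit false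

namespace Cfsg.Agent.Lib.FusionConstrSub

open Cfsg Cfsg.FusionSystem Cfsg.Agent.Lib.FusionCore Cfsg.Agent.Lib.FusionCore2

section Gen

variable {Ω : Type*} [Group Ω] {T : Subgroup Ω}

/-- Comparison of two saturated systems over `T`: if `Aut_{E₁}(P)` normalizes `Aut_{E₂}(P)` and
`Aut_{E₁}(T) ≤ Aut_{E₂}(T)` then `E₁ ≤ E₂`. -/
theorem le_of_normalized [Finite T] {p : ℕ} [Fact p.Prime] (hT : IsPGroup p T)
    {E₁ E₂ : FusionSystem T} (h₁ : E₁.IsSaturated p)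
    (hbase : E₁.autGroup T ≤ E₂.autGroup T)
    (hnorm : ∀ P : Subgroup Ω, P ≤ T → ∀ a ∈ E₁.autGroup P, ∀ b ∈ E₂.autGroup P, a * b * a⁻¹ ∈ E₂.autGroup P) :
    E₁ ≤ E₂ := by
  refine Cfsg.Agent.Lib.FusionIndexPrime.alperin_goldschmidt' hT h₁ E₂ (fun P hP IH => ?_)
  by_cases he : P = T
  · subst he
    exact hbase
  · have hE : E₁.IsEssential p P := hP.resolve_left he
    obtain ⟨hc, hN, -⟩ := hE
    have hPS := hc.1
    have hlt : P < T := lt_of_le_of_ne hPS he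
    obtain ⟨hC, hA⟩ := of_fullyNormalized hT h₁ hN
    have hR := receptive_of_fullyCentralized hT h₁ hC
    haveI := finite_mulAut hPS
    obtain ⟨-, A, hA⟩ := hA
    intro α hα
    let K : Subgroup (E₁.autGroup P) := (E₂.autGroup P).subgroupOf (E₁.autGroup P)
    haveI hK : K.Normal := ⟨fun b hb a => Subgroup.mem_subgroupOf.2 (hnorm P hPS a a.2 b (Subgroup.mem_subgroupOf.1 hb))⟩
    obtain ⟨ν, κ, hκ, hβ, hν⟩ := Cfsg.Agent.Lib.FusionAlperin.frattini_inf A K (⟨α, hα⟩ : E₁.autGroup P)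
    have hAK : ∀ a ∈ (A : Subgroup (E₁.autGroup P)), a ∈ K := by
      intro a ha
      rw [hA] at ha
      exact Subgroup.mem_subgroupOf.2 (autInducedBy_le_autGroup hPS (Subgroup.mem_subgroupOf.1 ha))
    have hνm : Maps E₁ P (afn (ν : MulAut P)) := (mem_autGroup_iff hPS).1 ν.2
    have hNf : normalizerIn T P ≤ Nf T P (afn (ν : MulAut P)) := by
      intro g hg
      have hgN := hg
      rw [mem_normalizerIn] at hg
      obtain ⟨hgS, hgn⟩ := hg
      refine mem_Nf.2 ⟨hgS, hgn, ?_⟩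
      have hc1 : conjN T P ⟨g, hgN⟩ ∈ autInducedBy T P := by
        rw [← conjN_range]
        exact ⟨_, rfl⟩
      have hc2 : (⟨conjN T P ⟨g, hgN⟩, autInducedBy_le_autGroup hPS hc1⟩ : E₁.autGroup P) ∈
          (A : Subgroup (E₁.autGroup P)) := by
        rw [hA]
        exact hc1
      have h3 := (hν _ ⟨hc2, hAK _ hc2⟩).1
      rw [hA] at h3
      obtain ⟨h, hh, h4⟩ := mem_autInducedBy.1 (Subgroup.mem_subgroupOf.1 h3)
      refine ⟨h, hh, fun x hx => ?_⟩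
      have h5 := h4 _ (afn_mem (ν : MulAut P) hx)
      have e : (↑(ν * ⟨conjN T P ⟨g, hgN⟩, autInducedBy_le_autGroup hPS hc1⟩ * ν⁻¹ : E₁.autGroup P) : MulAut P)
          = (ν : MulAut P) * conjN T P ⟨g, hgN⟩ * (ν : MulAut P)⁻¹ := rfl
      rw [e, afn_mul _ _ (afn_mem _ hx), afn_inv_afn _ hx, afn_mul _ _ hx, afn_conjN _ hx] at h5
      exact h5
    obtain ⟨k, hk, hk1⟩ := Cfsg.Agent.Lib.FusionCore.IsReceptive.ext hR hνm (afn_img _)
    have hNlt := Cfsg.Agent.Lib.FusionAlperin.lt_normalizerIn hT hlt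
    have hcN : Nat.card P < Nat.card (normalizerIn T P) := by
      haveI : Finite (normalizerIn T P) := finite_of_le inf_le_left
      exact Cfsg.Agent.Lib.FusionAlperin.card_lt_of_lt hNlt
    have h1 := IH _ inf_le_left hcN k (hk.restrict hNf)
    have h2 : Maps E₂ P (afn (ν : MulAut P)) := (h1.restrict hNlt.le).congr hk1
    have h3 : (κ : MulAut P) ∈ E₂.autGroup P := Subgroup.mem_subgroupOf.1 hκ
    have h4 : (ν : MulAut P) ∈ E₂.autGroup P := (mem_autGroup_iff hPS).2 h2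
    have e : α = (ν : MulAut P) * κ := congrArg Subtype.val hβ
    rw [e]
    exact Subgroup.mul_mem _ h4 h3

end Gen

section Kernel

open scoped IsMulCommutative

/-- A normal subgroup with given intersection with a Sylow subgroup, through the focal subgroup theorem. -/
theorem exists_kernel {Y : Type*} [Group Y] [Finite Y] {p : ℕ} [Fact p.Prime] (P : Sylow p Y) (T : Subgroup Y)
    (hTP : T ≤ P) (hf : (P : Subgroup Y).focalSubgroup ≤ T) :
    ∃ K : Subgroup Y, K.Normal ∧ K ⊓ (P : Subgroup Y) = T ∧ ∀ y : Y, (orderOf y).Coprime p → y ∈ K := by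
  set foc := (P : Subgroup Y).focalSubgroupOf with hfoc
  let τ : Y →* (P : Subgroup Y) ⧸ foc := (P : Subgroup Y).transferFocal
  let Tb : Subgroup ((P : Subgroup Y) ⧸ foc) := (T.subgroupOf (P : Subgroup Y)).map (QuotientGroup.mk' foc)
  have hQ : IsPGroup p ((P : Subgroup Y) ⧸ foc) := P.2.to_quotient foc
  have hTb : IsPGroup p Tb := hQ.to_subgroup Tb
  have hn : ¬ p ∣ (P : Subgroup Y).index := P.not_dvd_index
  have hcop : (P : Subgroup Y).index.Coprime p := ((Nat.Prime.coprime_iff_not_dvd Fact.out).2 hn).symm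
  have hτ : ∀ x : (P : Subgroup Y), τ x = (x : (P : Subgroup Y) ⧸ foc) ^ (P : Subgroup Y).index :=
    fun x => (P : Subgroup Y).transferFocal_eq_pow x
  refine ⟨Tb.comap τ, ?_, ?_, fun y hy => ?_⟩
  · haveI : Tb.Normal := ⟨fun n hn g => by
      have : g * n * g⁻¹ = n := by
        rw [mul_comm g n, mul_inv_cancel_right]
      rwa [this]⟩
    exact Subgroup.Normal.comap inferInstance τ
  · apply le_antisymm
    · rintro x ⟨hx1, hx2⟩
      let x' : (P : Subgroup Y) := ⟨x, hx2⟩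
      have h1 : (x' : (P : Subgroup Y) ⧸ foc) ^ (P : Subgroup Y).index ∈ Tb := by
        rw [← hτ x']
        exact hx1
      let y' : Tb := (hTb.powEquiv' hn).symm ⟨_, h1⟩
      have h2 : (y' : (P : Subgroup Y) ⧸ foc) ^ (P : Subgroup Y).index =
          (x' : (P : Subgroup Y) ⧸ foc) ^ (P : Subgroup Y).index := by
        have := (hTb.powEquiv' hn).apply_symm_apply ⟨_, h1⟩
        exact congrArg Subtype.val this
      have h3 : (y' : (P : Subgroup Y) ⧸ foc) = (x' : (P : Subgroup Y) ⧸ foc) :=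
        (hQ.powEquiv' hn).injective h2
      obtain ⟨t, ht, h4⟩ := y'.2
      rw [h3] at h4
      have h5 : t⁻¹ * x' ∈ foc := QuotientGroup.eq.1 h4
      have h6 : ((t⁻¹ * x' : (P : Subgroup Y)) : Y) ∈ T := hf (Subgroup.mem_subgroupOf.1 h5)
      have h7 : (t : Y) ∈ T := Subgroup.mem_subgroupOf.1 ht
      have h8 : x = (t : Y) * ((t⁻¹ * x' : (P : Subgroup Y)) : Y) := by
        show x = (t : Y) * ((t : Y)⁻¹ * x)
        group
      rw [h8]
      exact T.mul_mem h7 h6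
    · intro t ht
      refine ⟨?_, hTP ht⟩
      let t' : (P : Subgroup Y) := ⟨t, hTP ht⟩
      show τ t' ∈ Tb
      rw [hτ t']
      have hm : (t' : (P : Subgroup Y) ⧸ foc) ∈ Tb := ⟨t', Subgroup.mem_subgroupOf.2 ht, rfl⟩
      exact Subgroup.pow_mem _ hm _
  · show τ y ∈ Tb
    obtain ⟨n, hn'⟩ := hQ (τ y)
    have h1 : τ y ^ orderOf y = 1 := by rw [← _root_.map_pow, pow_orderOf_eq_one, _root_.map_one]
    rw [Cfsg.Agent.Lib.PResid.eq_one_of_pow_eq_one_of_coprime hn' h1 hy]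
    exact Subgroup.one_mem _

end Kernel

section Act

variable {G : Type*} [Group G]

/-- Elements acting trivially on `V / R`. -/
def ActTriv (V R : Subgroup G) [hV : V.Normal] [hR : R.Normal] : Subgroup G where
  carrier := {g | ∀ v ∈ V, v⁻¹ * (g * v * g⁻¹) ∈ R}
  mul_mem' := by
    intro g h hg hh v hv
    have h1 := hg v hv
    have h2 := hR.conj_mem _ (hh v hv) g
    have e : v⁻¹ * (g * h * v * (g * h)⁻¹) = (v⁻¹ * (g * v * g⁻¹)) * (g * (v⁻¹ * (h * v * h⁻¹)) * g⁻¹) := by group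
    rw [e]
    exact R.mul_mem h1 h2
  one_mem' := by
    intro v _
    simp [R.one_mem]
  inv_mem' := by
    intro g hg v hv
    have hv1 : g⁻¹ * v * g⁻¹⁻¹ ∈ V := hV.conj_mem v hv g⁻¹
    have h1 := hg _ hv1
    have e : (g⁻¹ * v * g⁻¹⁻¹)⁻¹ * (g * (g⁻¹ * v * g⁻¹⁻¹) * g⁻¹) = (v⁻¹ * (g⁻¹ * v * g⁻¹⁻¹))⁻¹ := by group
    rw [e] at h1
    exact (R.inv_mem_iff).1 h1

lemma mem_ActTriv {V R : Subgroup G} [V.Normal] [R.Normal] {g : G} :
    g ∈ ActTriv V R ↔ ∀ v ∈ V, v⁻¹ * (g * v * g⁻¹) ∈ R := Iff.rfl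

instance ActTriv_normal (V R : Subgroup G) [hV : V.Normal] [hR : R.Normal] : (ActTriv V R).Normal := by
  refine ⟨fun g hg k v hv => ?_⟩
  have hv1 : k⁻¹ * v * k⁻¹⁻¹ ∈ V := hV.conj_mem v hv k⁻¹
  have h1 := hR.conj_mem _ (hg _ hv1) k
  have e : k * ((k⁻¹ * v * k⁻¹⁻¹)⁻¹ * (g * (k⁻¹ * v * k⁻¹⁻¹) * g⁻¹)) * k⁻¹ = v⁻¹ * (k * g * k⁻¹ * v * (k * g * k⁻¹)⁻¹) := by group
  rw [e] at h1
  exact h1

/-- The stability group of `V ≥ R ≥ 1`. -/
def St (V R : Subgroup G) [V.Normal] [R.Normal] : Subgroup G := ActTriv V R ⊓ Subgroup.centralizer (R : Set G)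

lemma mem_St {V R : Subgroup G} [V.Normal] [R.Normal] {g : G} :
    g ∈ St V R ↔ g ∈ ActTriv V R ∧ ∀ r ∈ R, r * g = g * r := by
  constructor
  · rintro ⟨h1, h2⟩
    exact ⟨h1, fun r hr => Subgroup.mem_centralizer_iff.1 h2 r hr⟩
  · rintro ⟨h1, h2⟩
    exact ⟨h1, Subgroup.mem_centralizer_iff.2 (fun r hr => h2 r hr)⟩

instance St_normal (V R : Subgroup G) [V.Normal] [hR : R.Normal] : (St V R).Normal := by
  refine ⟨fun g hg k => mem_St.2 ⟨(ActTriv_normal V R).conj_mem _ (mem_St.1 hg).1 k, fun r hr => ?_⟩⟩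
  have hr1 : k⁻¹ * r * k⁻¹⁻¹ ∈ R := hR.conj_mem r hr k⁻¹
  have h1 := (mem_St.1 hg).2 _ hr1
  calc r * (k * g * k⁻¹) = k * ((k⁻¹ * r * k⁻¹⁻¹) * g) * k⁻¹ := by group
    _ = k * (g * (k⁻¹ * r * k⁻¹⁻¹)) * k⁻¹ := by rw [h1]
    _ = k * g * k⁻¹ * r := by group

open Cfsg.Agent.Lib.PCore in
/-- The stability group lies in `O_p(G)`. -/
lemma St_le [Finite G] {p : ℕ} [Fact p.Prime] (hG : Subgroup.centralizer ((pCore p G : Subgroup G) : Set G) ≤ pCore p G)
    (R : Subgroup G) [R.Normal] (hRV : R ≤ pCore p G) : St (pCore p G) R ≤ pCore p G := by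
  have hVp : IsPGroup p (pCore p G) := isPGroup_pCore p
  have hRp : IsPGroup p R := hVp.to_le hRV
  refine le_pCore inferInstance ?_
  rintro ⟨x, hx⟩
  obtain ⟨a, b, hab, -, ⟨n, ha⟩, hb, -, hbx⟩ := Cfsg.Agent.Lib.PResid.exists_decomp (p := p) x
  have hbS : b ∈ St (pCore p G) R := (Subgroup.zpowers_le.2 hx) hbx
  have hcent : b ∈ Subgroup.centralizer ((pCore p G : Subgroup G) : Set G) := by
    rw [Subgroup.mem_centralizer_iff]
    intro v hv
    have := Cfsg.Agent.Lib.PResid.commute_of_coprime_of_chain hRp hb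
      (fun u hu => (mem_St.1 hbS).2 u hu) ((mem_St.1 hbS).1 v hv)
    exact this
  have hb1 := hG hcent
  obtain ⟨k, hk⟩ := hVp ⟨b, hb1⟩
  have hk' : b ^ p ^ k = 1 := by
    have := congrArg Subtype.val hk
    simpa using this
  have hb2 : b = 1 := Cfsg.Agent.Lib.PResid.eq_one_of_pow_eq_one_of_coprime hk' (pow_orderOf_eq_one b) hb
  refine ⟨n, Subtype.ext ?_⟩
  rw [hb2, mul_one] at hab
  rw [← hab] at ha
  simpa using ha

end Act

end Cfsg.Agent.Lib.FusionConstrSub
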