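/-
FusionConstrSub2: the subgroup `Y` and lifts of automorphisms of `E` to it.
-/
import Mathlib
import Cfsg.Agent.Lib.FusionConstrSub

set_option autoImplicit false

namespace Cfsg.Agent.Lib.FusionConstrSub

open Cfsg Cfsg.FusionSystem Cfsg.Agent.Lib.FusionCore Cfsg.Agent.Lib.FusionCore2
open Cfsg.Agent.Lib.FusionNormalSub (maps_group maps_sub)
open Cfsg.Agent.Lib.FusionInvariant (Str StrongMem)

variable {G : Type*} [Group G] {p : ℕ}

section Conj

variable {T : Subgroup G} {E : FusionSystem T} {P : Subgroup G} {g h : G}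

lemma img_conj_eq (hE : Maps E P (fun x => g * x * g⁻¹)) (h1 : ∀ x ∈ P, g * x * g⁻¹ ∈ P) (h2 : ∀ x ∈ P, g⁻¹ * x * g ∈ P) :
    img (fun x => g * x * g⁻¹) P = P := by
  ext y
  rw [hE.mem_img]
  constructor
  · rintro ⟨x, hx, rfl⟩
    exact h1 x hx
  · intro hy
    exact ⟨_, h2 y hy, by group⟩

lemma maps_conj_mul (hg : Maps E P (fun x => g * x * g⁻¹)) (hh : Maps E P (fun x => h * x * h⁻¹)) (hv : ∀ x ∈ P, h * x * h⁻¹ ∈ P) :
    Maps E P (fun x => (g * h) * x * (g * h)⁻¹) :=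
  (hh.comp hg hv).congr (fun x _ => by
    show g * (h * x * h⁻¹) * g⁻¹ = _
    group)

lemma maps_conj_inv (hg : Maps E P (fun x => g * x * g⁻¹)) (himg : img (fun x => g * x * g⁻¹) P = P) :
    Maps E P (fun x => g⁻¹ * x * g⁻¹⁻¹) := by
  obtain ⟨k, hk, h1, -⟩ := hg.inv
  rw [himg] at hk
  refine hk.congr (fun y hy => ?_)
  rw [← himg] at hy
  obtain ⟨x, hx, rfl⟩ := hg.mem_img.1 hy
  rw [h1 x hx]
  group

end Conj

/-- An element normalizing a Sylow subgroup, of `p`-power order, lies in it. -/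
lemma mem_sylow_of_normalizes {D : Type*} [Group D] [Finite D] [Fact p.Prime] (A : Sylow p D) {a : D} {n : ℕ} (hp : a ^ p ^ n = 1)
    (hn : ∀ b ∈ (A : Subgroup D), a * b * a⁻¹ ∈ (A : Subgroup D)) : a ∈ (A : Subgroup D) := by
  have hP : IsPGroup p (Subgroup.zpowers a) := by
    rintro ⟨g, hg⟩
    obtain ⟨z, rfl⟩ := Subgroup.mem_zpowers_iff.1 hg
    refine ⟨n, Subtype.ext ?_⟩
    show (a ^ z) ^ p ^ n = 1
    rw [← zpow_natCast, zpow_comm, zpow_natCast, hp, one_zpow]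
  have h1 : a ∈ Subgroup.zpowers a ⊓ Subgroup.normalizer ((A : Subgroup D) : Set D) :=
    ⟨Subgroup.mem_zpowers a, mem_normalizer_of_conj_mem (P := (A : Subgroup D)) hn⟩
  have h2 : a ∈ Subgroup.zpowers a ⊓ Subgroup.normalizer (A : Set D) := h1
  rw [hP.inf_normalizer_sylow A] at h2
  exact h2.2

/-- Abbreviation for the ambient system. -/
abbrev FF (S : Sylow p G) : FusionSystem (S : Subgroup G) := groupFusionSystem (S : Subgroup G)

/-- The context of the theorem. -/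
structure Ctx [Finite G] [Fact p.Prime] (S : Sylow p G) (T : Subgroup G) (E : FusionSystem T) : Prop where
  hG : Subgroup.centralizer ((pCore p G : Subgroup G) : Set G) ≤ pCore p G
  hE : E.IsNormalIn (FF S) p

/-- `O_p(G) ∩ T`. -/
def RR (p : ℕ) {G : Type*} [Group G] (T : Subgroup G) : Subgroup G := T ⊓ pCore p G

namespace Ctx

variable [Finite G] [Fact p.Prime] {S : Sylow p G} {T : Subgroup G} {E : FusionSystem T} (C : Ctx S T E)

include C

lemma sat : E.IsSaturated p := C.hE.1.1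
lemma satF : (FF S).IsSaturated p := C.hE.1.2.1
lemma inv : E.IsInvariantIn (FF S) := C.hE.1.2.2
lemma sub : E.IsSubsystemOf (FF S) := C.inv.1
lemma str : (FF S).StronglyClosed T := C.inv.2.1
lemma strr : Str (FF S) E :=
  (Cfsg.Agent.Lib.FusionInvariant.invariant_iff_str S.isPGroup' C.satF C.sub C.str).1 C.inv
lemma hTS : T ≤ S := C.str.1
lemma hTp : IsPGroup p T := S.isPGroup'.to_le C.hTS
omit C in
lemma hVS : pCore p G ≤ S := Cfsg.Agent.Lib.PCore.pCore_le_sylow p S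
omit C in
lemma hVp : IsPGroup p (pCore p G) := Cfsg.Agent.Lib.PCore.isPGroup_pCore p

lemma conj_T {x g : G} (hx : x ∈ T) (h : g * x * g⁻¹ ∈ (S : Subgroup G)) : g * x * g⁻¹ ∈ T := by
  have hz : Subgroup.zpowers x ≤ T := Subgroup.zpowers_le.2 hx
  have hm : Maps (FF S) (Subgroup.zpowers x) (fun y => g * y * g⁻¹) := by
    refine maps_group.2 ⟨hz.trans C.hTS, ?_, g, fun _ _ => rfl⟩
    rintro y hy
    obtain ⟨k, rfl⟩ := Subgroup.mem_zpowers_iff.1 hy
    rw [← conj_zpow]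
    exact Subgroup.zpow_mem _ h k
  exact StrongMem C.str hz hm (Subgroup.mem_zpowers x)

lemma norm_T {s t : G} (hs : s ∈ (S : Subgroup G)) (ht : t ∈ T) : s * t * s⁻¹ ∈ T :=
  C.conj_T ht (Subgroup.mul_mem _ (Subgroup.mul_mem _ hs (C.hTS ht)) (Subgroup.inv_mem _ hs))

lemma R_normal : (RR p T).Normal :=
  ⟨fun x hx g => ⟨C.conj_T hx.1 (hVS ((inferInstance : (pCore p G).Normal).conj_mem x hx.2 g)),
    (inferInstance : (pCore p G).Normal).conj_mem x hx.2 g⟩⟩

omit C in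
lemma R_le_T : RR p T ≤ T := inf_le_left
omit C in
lemma R_le_V : RR p T ≤ pCore p G := inf_le_right

lemma conj_R (g : G) {x : G} (hx : x ∈ RR p T) : g * x * g⁻¹ ∈ RR p T := C.R_normal.conj_mem x hx g

lemma conj_R' (g : G) {x : G} (hx : x ∈ RR p T) : g⁻¹ * x * g ∈ RR p T := by
  have := C.R_normal.conj_mem x hx g⁻¹
  simpa using this

lemma conj_V (g : G) {x : G} (hx : x ∈ pCore p G) : g * x * g⁻¹ ∈ pCore p G :=
  (inferInstance : (pCore p G).Normal).conj_mem x hx g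

lemma maps_F_R (g : G) : Maps (FF S) (RR p T) (fun x => g * x * g⁻¹) :=
  maps_group.2 ⟨R_le_T.trans C.hTS, fun x hx => hVS (R_le_V (C.conj_R g hx)), g, fun _ _ => rfl⟩

/-- The elements inducing maps of `E` on `R`. -/
def GamPre : Subgroup G where
  carrier := {g | Maps E (RR p T) (fun x => g * x * g⁻¹)}
  mul_mem' := fun {a b} ha hb => maps_conj_mul ha hb (fun x hx => C.conj_R b hx)
  one_mem' := by
    have h : Maps E (RR p T) (fun x => (1 : G) * x * (1 : G)⁻¹) := (Maps.id (F := E) R_le_T).congr (fun x _ => by simp)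
    exact h
  inv_mem' := fun {a} ha => maps_conj_inv ha (img_conj_eq ha (fun x hx => C.conj_R a hx) (fun x hx => C.conj_R' a hx))

lemma mem_GamPre {g : G} : g ∈ GamPre C ↔ Maps E (RR p T) (fun x => g * x * g⁻¹) := Iff.rfl

/-- The group `Y`. -/
def YY : Subgroup G := GamPre C ⊓ @ActTriv G _ (pCore p G) (RR p T) _ C.R_normal

lemma mem_YY {g : G} : g ∈ YY C ↔ Maps E (RR p T) (fun x => g * x * g⁻¹) ∧
    ∀ v ∈ pCore p G, v⁻¹ * (g * v * g⁻¹) ∈ RR p T := Iff.rfl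

/-- The stability group. -/
def StG : Subgroup G := @St G _ (pCore p G) (RR p T) _ C.R_normal

lemma mem_StG {g : G} : g ∈ StG C ↔ (∀ v ∈ pCore p G, v⁻¹ * (g * v * g⁻¹) ∈ RR p T) ∧ ∀ r ∈ RR p T, r * g = g * r := by
  haveI := C.R_normal
  exact mem_St

lemma StG_le : StG C ≤ pCore p G := by
  haveI := C.R_normal
  exact St_le C.hG (RR p T) R_le_V

lemma StG_le_YY : StG C ≤ YY C := by
  intro g hg
  obtain ⟨h1, h2⟩ := (mem_StG C).1 hg
  refine (mem_YY C).2 ⟨?_, h1⟩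
  refine (Maps.id (F := E) R_le_T).congr (fun x hx => ?_)
  show x = g * x * g⁻¹
  rw [← h2 x hx]
  group

lemma StG_normal : (StG C).Normal := by
  haveI := C.R_normal
  exact St_normal _ _

lemma T_le_YY : T ≤ YY C := by
  intro t ht
  refine (mem_YY C).2 ⟨Maps.conj R_le_T ht, fun v hv => ⟨?_, ?_⟩⟩
  · have h1 := C.norm_T (Subgroup.inv_mem _ (hVS hv)) ht
    have h2 : v⁻¹ * (t * v * t⁻¹) = (v⁻¹ * t * v⁻¹⁻¹) * t⁻¹ := by group
    rw [h2]
    exact T.mul_mem h1 (T.inv_mem ht)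
  · exact (pCore p G).mul_mem ((pCore p G).inv_mem hv) (C.conj_V t hv)

/-- `Aut_E(P)` is normalized by the maps of `F`. -/
lemma conj_aut_mem {P : Subgroup G} (hPT : P ≤ T) {a b : MulAut P} (ha : Maps (FF S) P (afn a)) (hb : b ∈ E.autGroup P) :
    a * b * a⁻¹ ∈ E.autGroup P := by
  have hbm : Maps E P (afn b) := (mem_autGroup_iff hPT).1 hb
  obtain ⟨k, hk, h1⟩ := C.strr (le_refl P) hPT hbm (fun x hx => afn_mem b hx) ha
  rw [afn_img] at hk
  refine (mem_autGroup_iff hPT).2 (hk.congr (fun y hy => ?_))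
  have h2 := h1 _ (afn_mem a⁻¹ hy)
  rw [afn_afn_inv _ hy] at h2
  rw [h2, afn_mul _ _ hy, afn_mul _ _ (afn_mem _ hy)]

lemma Tfn : E.IsFullyNormalized T := by
  refine ⟨le_rfl, fun Q hQ => ?_⟩
  have hn : normalizerIn T T = T := le_antisymm inf_le_left (le_inf le_rfl Subgroup.le_normalizer)
  rw [hn]
  have hQT : normalizerIn T Q ≤ T := inf_le_left
  exact Subgroup.card_le_of_le hQT

lemma Rfn : E.IsFullyNormalized (RR p T) := by
  refine ⟨R_le_T, fun Q hQ => ?_⟩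
  have hn : normalizerIn T (RR p T) = T :=
    le_antisymm inf_le_left (le_inf le_rfl (fun t _ => mem_normalizer_of_conj_mem (fun x hx => C.conj_R t hx)))
  rw [hn]
  have hQT : normalizerIn T Q ≤ T := inf_le_left
  exact Subgroup.card_le_of_le hQT

/-- `p`-elements of `Aut_E(T)` are inner. -/
lemma inn_of_pow {α : MulAut T} (hα : α ∈ E.autGroup T) {n : ℕ} (hn : α ^ p ^ n = 1) :
    ∃ t ∈ T, ∀ x ∈ T, afn α x = t * x * t⁻¹ := by
  obtain ⟨-, -, A, hA⟩ := of_fullyNormalized C.hTp C.sat C.Tfn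
  haveI := finite_mulAut (P := T) le_rfl
  have h1 : (⟨α, hα⟩ : E.autGroup T) ∈ (A : Subgroup (E.autGroup T)) := by
    refine mem_sylow_of_normalizes A (n := n) (Subtype.ext hn) (fun b hb => ?_)
    rw [hA] at hb ⊢
    obtain ⟨t, ht, h2⟩ := mem_autInducedBy.1 (Subgroup.mem_subgroupOf.1 hb)
    refine Subgroup.mem_subgroupOf.2 (mem_autInducedBy.2 ⟨afn α t, afn_mem α ht, fun x hx => ?_⟩)
    have hm : Maps E T (afn α) := (mem_autGroup_iff le_rfl).1 hα
    show afn (α * (b : MulAut T) * α⁻¹) x = _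
    rw [afn_mul _ _ hx, afn_mul _ _ (afn_mem _ hx), h2 _ (afn_mem _ hx), hm.map_conj ht (afn_mem _ hx), afn_afn_inv _ hx]
  rw [hA] at h1
  obtain ⟨t, ht, h2⟩ := mem_autInducedBy.1 (Subgroup.mem_subgroupOf.1 h1)
  exact ⟨t, ht, h2⟩

end Ctx

end Cfsg.Agent.Lib.FusionConstrSub
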