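import Mathlib

/-!
# Marks of finite `G`-sets

`mark X H` is the number of points of `X` fixed by `H`.

* `exists_equiv_of_marks`: Burnside's theorem: finite `G`-sets with the same marks are isomorphic.
* `mark_quot`: the marks of the orbits `G ⧸ E`.
* `card_dvd_sum_mark`: the Burnside congruences.
-/

set_option autoImplicit false

namespace Cfsg.Agent.Lib.Marks

universe u v w

variable {G : Type u} [Group G]

/-- The number of points of `X` fixed by `H`. -/
noncomputable def mark (X : Type*) [MulAction G X] (H : Subgroup G) : ℕ :=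
  Nat.card {x : X // ∀ h ∈ H, h • x = x}

theorem card_split {X : Type*} [Finite X] (P Q : X → Prop) :
    Nat.card {x // P x} = Nat.card {x // P x ∧ Q x} + Nat.card {x // P x ∧ ¬ Q x} := by
  classical
  let e : {x // P x} ≃ {x // P x ∧ Q x} ⊕ {x // P x ∧ ¬ Q x} :=
    (Equiv.sumCompl (fun y : {x // P x} => Q y.1)).symm.trans
      (Equiv.sumCongr (Equiv.subtypeSubtypeEquivSubtypeInter P Q)
        (Equiv.subtypeSubtypeEquivSubtypeInter P (fun x => ¬ Q x)))
  rw [Nat.card_congr e, Nat.card_sum]

section Burnside

variable {X : Type v} [MulAction G X]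

/-- The complement of an orbit. -/
def OrbC (x : X) : Type v := {z : X // z ∉ MulAction.orbit G x}

theorem not_mem_orbit_smul {x z : X} (hz : z ∉ MulAction.orbit G x) (g : G) : g • z ∉ MulAction.orbit G x := by
  rintro ⟨g₀, h⟩
  apply hz
  refine ⟨g⁻¹ * g₀, ?_⟩
  show (g⁻¹ * g₀) • x = z
  have h' : g₀ • x = g • z := h
  rw [mul_smul, h', inv_smul_smul]

instance (x : X) : MulAction G (OrbC (G := G) x) where
  smul g z := ⟨g • z.1, not_mem_orbit_smul z.2 g⟩
  one_smul z := Subtype.ext (one_smul G z.1)
  mul_smul a b z := Subtype.ext (mul_smul a b z.1)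

theorem orbC_smul_coe {x : X} (g : G) (z : OrbC (G := G) x) : (g • z : OrbC (G := G) x).1 = g • z.1 := rfl

theorem mark_split [Finite X] (x : X) (H : Subgroup G) :
    mark X H = Nat.card {z // (∀ h ∈ H, h • z = z) ∧ z ∈ MulAction.orbit G x} + mark (OrbC (G := G) x) H := by
  rw [mark, card_split (fun z : X => ∀ h ∈ H, h • z = z) (fun z => z ∈ MulAction.orbit G x)]
  congr 1
  unfold mark
  apply Nat.card_congr
  exact
    { toFun := fun z => ⟨⟨z.1, z.2.2⟩, fun h hh => Subtype.ext (z.2.1 h hh)⟩
      invFun := fun z => ⟨z.1.1, fun h hh => congrArg Subtype.val (z.2 h hh), z.1.2⟩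
      left_inv := fun z => rfl
      right_inv := fun z => rfl }

end Burnside

theorem exists_of_mark_ne_zero {Z : Type*} [MulAction G Z] {L : Subgroup G} (hL : mark Z L ≠ 0) :
    ∃ z : Z, L ≤ MulAction.stabilizer G z := by
  have : Nonempty {z : Z // ∀ h ∈ L, h • z = z} := by
    rw [← not_isEmpty_iff]
    intro he
    exact hL Nat.card_of_isEmpty
  obtain ⟨z⟩ := this
  exact ⟨z.1, fun h hh => z.2 h hh⟩

theorem mark_pos {Z : Type*} [MulAction G Z] [Finite Z] (z : Z) {L : Subgroup G}
    (hL : L ≤ MulAction.stabilizer G z) : mark Z L ≠ 0 := by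
  have : Nonempty {z : Z // ∀ h ∈ L, h • z = z} := ⟨⟨z, fun h hh => hL hh⟩⟩
  exact Nat.card_ne_zero.2 ⟨this, inferInstance⟩

theorem smul_mem_orbit' {X : Type*} [MulAction G X] {x z : X} (g : G) (hz : z ∈ MulAction.orbit G x) :
    g • z ∈ MulAction.orbit G x := by
  obtain ⟨g₀, rfl⟩ := hz
  exact ⟨g * g₀, mul_smul g g₀ x⟩

section BurnsideMain

variable {X : Type v} {Y : Type w} [MulAction G X] [MulAction G Y]

/-- The map of orbits with the same stabilizer. -/
theorem exists_orbit_equiv {x : X} {y : Y} (hst : MulAction.stabilizer G x = MulAction.stabilizer G y) :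
    ∃ e : MulAction.orbit G x ≃ MulAction.orbit G y, ∀ (g : G) (z : MulAction.orbit G x),
      ((e ⟨g • (z : X), smul_mem_orbit' g z.2⟩ : MulAction.orbit G y) : Y) = g • (e z : Y) := by
  classical
  have key : ∀ g g' : G, g • x = g' • x ↔ g • y = g' • y := by
    intro g g'
    have h1 : g • x = g' • x ↔ g'⁻¹ * g ∈ MulAction.stabilizer G x := by
      rw [MulAction.mem_stabilizer_iff, mul_smul, inv_smul_eq_iff]
    have h2 : g • y = g' • y ↔ g'⁻¹ * g ∈ MulAction.stabilizer G y := by
      rw [MulAction.mem_stabilizer_iff, mul_smul, inv_smul_eq_iff]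
    rw [h1, h2, hst]
  have hx : ∀ z : MulAction.orbit G x, ∃ g : G, g • x = z := fun z => z.2
  have hy : ∀ z : MulAction.orbit G y, ∃ g : G, g • y = z := fun z => z.2
  choose a ha using hx
  choose b hb using hy
  let e : MulAction.orbit G x ≃ MulAction.orbit G y :=
    { toFun := fun z => ⟨a z • y, MulAction.mem_orbit _ _⟩
      invFun := fun z => ⟨b z • x, MulAction.mem_orbit _ _⟩
      left_inv := fun z => by
        apply Subtype.ext
        show b ⟨a z • y, _⟩ • x = z
        rw [← ha z]
        exact (key _ _).2 (hb _)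
      right_inv := fun z => by
        apply Subtype.ext
        show a ⟨b z • x, _⟩ • y = z
        rw [← hb z]
        exact (key _ _).1 (ha _) }
  refine ⟨e, fun g z => ?_⟩
  show a ⟨g • (z : X), _⟩ • y = g • (a z • y)
  rw [← mul_smul]
  refine (key _ _).1 ?_
  rw [ha, mul_smul, ha]

/-- **Burnside's theorem**: finite `G`-sets with the same marks are isomorphic. -/
theorem exists_equiv_of_marks_aux [Finite G] (n : ℕ) : ∀ (X : Type v) (Y : Type w) [MulAction G X] [MulAction G Y]
    [Finite X] [Finite Y], Nat.card X = n → (∀ H : Subgroup G, mark X H = mark Y H) →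
    ∃ f : X ≃ Y, ∀ (g : G) (x : X), f (g • x) = g • f x := by
  induction n using Nat.strong_induction_on with
  | _ n ih =>
    intro X Y _ _ _ _ hn hm
    classical
    by_cases hX : IsEmpty X
    · have hcard : Nat.card X = Nat.card Y := by
        have := hm ⊥
        simp only [mark] at this
        have e1 : Nat.card {x : X // ∀ h ∈ (⊥ : Subgroup G), h • x = x} = Nat.card X :=
          Nat.card_congr ⟨fun z => z.1, fun z => ⟨z, fun h hh => by
            rw [Subgroup.mem_bot.1 hh, one_smul]⟩, fun _ => rfl, fun _ => rfl⟩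
        have e2 : Nat.card {x : Y // ∀ h ∈ (⊥ : Subgroup G), h • x = x} = Nat.card Y :=
          Nat.card_congr ⟨fun z => z.1, fun z => ⟨z, fun h hh => by
            rw [Subgroup.mem_bot.1 hh, one_smul]⟩, fun _ => rfl, fun _ => rfl⟩
        rw [← e1, ← e2, this]
      have hY : IsEmpty Y := by
        rw [← Finite.card_eq_zero_iff, ← hcard, Finite.card_eq_zero_iff]
        exact hX
      exact ⟨Equiv.equivOfIsEmpty X Y, fun g x => (hX.false x).elim⟩
    · rw [not_isEmpty_iff] at hX
      obtain ⟨x, hx⟩ := Finite.exists_max (fun z : X => Nat.card (MulAction.stabilizer G z))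
      set K : Subgroup G := MulAction.stabilizer G x with hK
      -- a point of `Y` fixed by `K`
      have h1 : mark Y K ≠ 0 := by
        rw [← hm K]
        exact mark_pos x le_rfl
      obtain ⟨y, hy⟩ := exists_of_mark_ne_zero h1
      have h2 : mark X (MulAction.stabilizer G y) ≠ 0 := by
        rw [hm]
        exact mark_pos y le_rfl
      obtain ⟨x', hx'⟩ := exists_of_mark_ne_zero h2
      have hst : K = MulAction.stabilizer G y := by
        apply Subgroup.eq_of_le_of_card_ge hy
        calc Nat.card (MulAction.stabilizer G y) ≤ Nat.card (MulAction.stabilizer G x') :=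
              Subgroup.card_le_of_le hx'
          _ ≤ Nat.card K := hx x'
      obtain ⟨e, he⟩ := exists_orbit_equiv hst
      -- the complements
      have hcount : ∀ H : Subgroup G, Nat.card {z // (∀ h ∈ H, h • z = z) ∧ z ∈ MulAction.orbit G x} =
          Nat.card {z // (∀ h ∈ H, h • z = z) ∧ z ∈ MulAction.orbit G y} := by
        intro H
        have hfix : ∀ (z : MulAction.orbit G x), (∀ h ∈ H, h • (z : X) = z) ↔ ∀ h ∈ H, h • ((e z : MulAction.orbit G y) : Y) = e z := by
          intro z
          constructor
          · intro hz h hh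
            rw [← he h z]
            congr 2
            exact Subtype.ext (hz h hh)
          · intro hz h hh
            have h3 := he h z
            rw [hz h hh] at h3
            have h4 := e.injective (Subtype.ext h3)
            exact congrArg Subtype.val h4
        apply Nat.card_congr
        exact
          { toFun := fun z => ⟨(e ⟨z.1, z.2.2⟩ : MulAction.orbit G y), (hfix _).1 z.2.1, (e ⟨z.1, z.2.2⟩).2⟩
            invFun := fun z => ⟨(e.symm ⟨z.1, z.2.2⟩ : MulAction.orbit G x), (hfix _).2 (by
              rw [Equiv.apply_symm_apply]; exact z.2.1), (e.symm ⟨z.1, z.2.2⟩).2⟩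
            left_inv := fun z => by
              apply Subtype.ext
              simp
            right_inv := fun z => by
              apply Subtype.ext
              simp }
      have hmark' : ∀ H : Subgroup G, mark (OrbC (G := G) x) H = mark (OrbC (G := G) y) H := by
        intro H
        have h3 := mark_split x H
        have h4 := mark_split y H
        rw [hm H, h4, hcount H] at h3
        omega
      have hcardlt : Nat.card (OrbC (G := G) x) < n := by
        rw [← hn]
        have hxx : ¬ (x ∉ MulAction.orbit G x) := fun h => h (MulAction.mem_orbit_self x)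
        exact Finite.card_subtype_lt hxx
      haveI : Finite (OrbC (G := G) x) := Subtype.finite
      haveI : Finite (OrbC (G := G) y) := Subtype.finite
      obtain ⟨f₁, hf₁⟩ := ih _ hcardlt (OrbC (G := G) x) (OrbC (G := G) y) rfl hmark'
      let e' : {a // a ∈ MulAction.orbit G x} ≃ {a // a ∈ MulAction.orbit G y} := e
      let f' : {a // a ∉ MulAction.orbit G x} ≃ {a // a ∉ MulAction.orbit G y} := f₁
      refine ⟨(Equiv.sumCompl (· ∈ MulAction.orbit G x)).symm.trans
        ((Equiv.sumCongr e' f').trans (Equiv.sumCompl (· ∈ MulAction.orbit G y))), fun g z => ?_⟩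
      by_cases hz : z ∈ MulAction.orbit G x
      · have hz' : g • z ∈ MulAction.orbit G x := smul_mem_orbit' g hz
        simp only [Equiv.trans_apply, Equiv.sumCompl_symm_apply_of_pos, hz, hz', Equiv.sumCongr_apply,
          Sum.map_inl, Equiv.sumCompl_apply_inl]
        exact he g ⟨z, hz⟩
      · have hz' : g • z ∉ MulAction.orbit G x := not_mem_orbit_smul hz g
        simp only [Equiv.trans_apply, Equiv.sumCompl_symm_apply_of_neg, hz, hz', not_false_eq_true,
          Equiv.sumCongr_apply, Sum.map_inr, Equiv.sumCompl_apply_inr]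
        have := hf₁ g ⟨z, hz⟩
        exact congrArg Subtype.val this

/-- **Burnside's theorem**: finite `G`-sets with the same marks are isomorphic. -/
theorem exists_equiv_of_marks [Finite G] {X : Type v} {Y : Type w} [MulAction G X] [MulAction G Y]
    [Finite X] [Finite Y] (hm : ∀ H : Subgroup G, mark X H = mark Y H) :
    ∃ f : X ≃ Y, ∀ (g : G) (x : X), f (g • x) = g • f x :=
  exists_equiv_of_marks_aux _ X Y rfl hm

end BurnsideMain

end Cfsg.Agent.Lib.Marks
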