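/-
MarksStable: stabilization of `G`-sets.

Given a partial equivalence relation `r` on the subgroups of the finite group `G`, preserving the order and containing
the conjugacy of subgroups, and a subgroup `E₀` in the domain of `r`, there is a finite `G`-set whose point stabilizers
all lie in the domain of `r`, with a point of stabilizer `E₀` and with numbers of fixed points invariant under `r`.
-/
import Mathlib
import Cfsg.Agent.Lib.Marks

set_option autoImplicit false

namespace Cfsg.Agent.Lib.MarksStable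

open Cfsg.Agent.Lib.Marks

universe u v

variable {G : Type u} [Group G]

/-- The conjugate `g H g⁻¹`. -/
def cj (g : G) (H : Subgroup G) : Subgroup G := H.map (MulAut.conj g).toMonoidHom

theorem mem_cj {g x : G} {H : Subgroup G} : x ∈ cj g H ↔ g⁻¹ * x * g ∈ H := by
  constructor
  · rintro ⟨y, hy, rfl⟩
    simpa [mul_assoc] using hy
  · intro h
    exact ⟨_, h, by simp [mul_assoc]⟩

theorem card_cj (g : G) (H : Subgroup G) : Nat.card (cj g H) = Nat.card H :=
  Subgroup.card_map_of_injective (MulAut.conj g).injective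

theorem mark_cj {X : Type*} [MulAction G X] (g : G) (H : Subgroup G) : mark X (cj g H) = mark X H := by
  unfold mark
  apply Nat.card_congr
  refine ⟨fun x => ⟨g⁻¹ • x.1, fun h hh => ?_⟩, fun x => ⟨g • x.1, fun h hh => ?_⟩, fun x => ?_, fun x => ?_⟩
  · have h1 := x.2 (g * h * g⁻¹) (mem_cj.2 (by simpa [mul_assoc] using hh))
    have h2 : h • g⁻¹ • x.1 = g⁻¹ • (g * h * g⁻¹) • x.1 := by simp [mul_smul]
    rw [h2, h1]
  · have h1 := x.2 (g⁻¹ * h * g) (mem_cj.1 hh)
    have h2 : h • g • x.1 = g • (g⁻¹ * h * g) • x.1 := by simp [mul_smul]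
    rw [h2, h1]
  · exact Subtype.ext (by simp)
  · exact Subtype.ext (by simp)

/-- The marks of the orbits. -/
noncomputable def mu (E H : Subgroup G) : ℕ := mark (G ⧸ E) H

theorem smul_mk_eq_iff {E : Subgroup G} {h g : G} :
    h • (g : G ⧸ E) = g ↔ g⁻¹ * h * g ∈ E := by
  rw [MulAction.Quotient.smul_coe, eq_comm, smul_eq_mul, QuotientGroup.eq, mul_assoc]

theorem card_mul_mu [Finite G] (E H : Subgroup G) :
    Nat.card E * mu E H = Nat.card {g : G // ∀ h ∈ H, g⁻¹ * h * g ∈ E} := by
  classical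
  unfold mu mark
  rw [mul_comm, ← Nat.card_prod]
  apply Nat.card_congr
  refine ⟨fun q => ⟨q.1.1.out * q.2.1, fun h hh => ?_⟩, fun a => (⟨(a.1 : G ⧸ E), fun h hh => smul_mk_eq_iff.2 (a.2 h hh)⟩,
    ⟨((a.1 : G ⧸ E).out)⁻¹ * a.1, ?_⟩), fun q => ?_, fun a => ?_⟩
  · have h1 := q.1.2 h hh
    have h2 : h • ((q.1.1.out : G) : G ⧸ E) = (q.1.1.out : G) := by
      rw [QuotientGroup.out_eq']
      exact h1
    have h3 := E.mul_mem (E.mul_mem (E.inv_mem q.2.2) (smul_mk_eq_iff.1 h2)) q.2.2
    convert h3 using 1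
    group
  · rw [← QuotientGroup.eq, QuotientGroup.out_eq']
  · refine Prod.ext (Subtype.ext ?_) (Subtype.ext ?_)
    · show ((q.1.1.out * q.2.1 : G) : G ⧸ E) = q.1.1
      rw [QuotientGroup.mk_mul_of_mem _ q.2.2, QuotientGroup.out_eq']
    · show (((q.1.1.out * q.2.1 : G) : G ⧸ E).out)⁻¹ * (q.1.1.out * q.2.1) = q.2.1
      rw [QuotientGroup.mk_mul_of_mem _ q.2.2, QuotientGroup.out_eq']
      group
  · exact Subtype.ext (by simp)

theorem mu_eq_zero_of_lt [Finite G] {E H : Subgroup G} (h : Nat.card E < Nat.card H) : mu E H = 0 := by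
  by_contra h0
  have h1 : Nat.card E * mu E H ≠ 0 := mul_ne_zero Nat.card_pos.ne' h0
  rw [card_mul_mu] at h1
  have : Nonempty {g : G // ∀ h ∈ H, g⁻¹ * h * g ∈ E} := by
    rw [← not_isEmpty_iff]
    intro he
    exact h1 Nat.card_of_isEmpty
  obtain ⟨g, hg⟩ := this
  have h2 : cj g⁻¹ H ≤ E := by
    intro x hx
    have := hg _ (mem_cj.1 hx)
    simpa [mul_assoc] using this
  have h3 := Subgroup.card_le_of_le h2
  rw [card_cj] at h3
  omega

theorem card_mul_mu_of_eq [Finite G] {E H : Subgroup G} (h : Nat.card E = Nat.card H) :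
    Nat.card E * mu E H = Nat.card {g : G // cj g⁻¹ H = E} := by
  rw [card_mul_mu]
  apply Nat.card_congr
  refine Equiv.subtypeEquivRight fun g => ?_
  constructor
  · intro hg
    apply Subgroup.eq_of_le_of_card_ge
    · intro x hx
      have := hg _ (mem_cj.1 hx)
      simpa [mul_assoc] using this
    · rw [card_cj, h]
  · rintro rfl h hh
    rw [mem_cj]
    simpa [mul_assoc] using hh

section Main

variable [Finite G] [Fintype (Subgroup G)]

/-- The number of points of `H` in the combination `a` of orbits. -/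
noncomputable def Mk (a : Subgroup G → ℕ) (H : Subgroup G) : ℕ := ∑ E, a E * mu E H

theorem mu_cj (E : Subgroup G) (g : G) (H : Subgroup G) : mu E (cj g H) = mu E H := mark_cj g H

theorem Mk_cj (a : Subgroup G → ℕ) (g : G) (H : Subgroup G) : Mk a (cj g H) = Mk a H := by
  unfold Mk
  exact Finset.sum_congr rfl fun E _ => by rw [mu_cj]

theorem sum_card_mul_mu [DecidableEq (Subgroup G)] (d : Subgroup G → ℕ) (H : Subgroup G)
    (hd : ∀ g : G, d (cj g H) = d H) (P : Subgroup G → Prop) [DecidablePred P]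
    (hP : ∀ g : G, P (cj g H)) (hc : ∀ E, P E → Nat.card E = Nat.card H) :
    ∑ E, (if P E then Nat.card E * d E else 0) * mu E H = Nat.card G * d H := by
  classical
  haveI := Fintype.ofFinite G
  have h1 : ∀ E, (if P E then Nat.card E * d E else 0) * mu E H = ∑ g with cj g⁻¹ H = E, d (cj g⁻¹ H) := by
    intro E
    have h2 : ∑ g with cj g⁻¹ H = E, d (cj g⁻¹ H) = Nat.card {g : G // cj g⁻¹ H = E} * d E := by
      rw [Finset.sum_congr rfl (g := fun _ => d E)]
      · rw [Finset.sum_const, smul_eq_mul, Nat.card_eq_fintype_card, Fintype.card_subtype]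
      · intro g hg
        rw [(Finset.mem_filter.1 hg).2]
    rw [h2]
    by_cases hE : P E
    · rw [if_pos hE, ← card_mul_mu_of_eq (hc E hE)]
      ring
    · rw [if_neg hE, zero_mul]
      have : IsEmpty {g : G // cj g⁻¹ H = E} := ⟨fun g => hE (g.2 ▸ hP _)⟩
      rw [Nat.card_of_isEmpty, zero_mul]
  rw [Finset.sum_congr rfl (fun E _ => h1 E), Finset.sum_fiberwise, Finset.sum_congr rfl (fun g _ => hd g⁻¹),
    Finset.sum_const, smul_eq_mul, Nat.card_eq_fintype_card, Finset.card_univ]

/-- The stabilization step and induction. -/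
theorem exists_stable_aux (r : Subgroup G → Subgroup G → Prop) (hs : ∀ E E', r E E' → r E' E)
    (ht : ∀ E E' E'', r E E' → r E' E'' → r E E'') (hc : ∀ E E', r E E' → Nat.card E = Nat.card E')
    (hj : ∀ E (g : G), r E E → r E (cj g E)) (E₀ : Subgroup G) (h₀ : r E₀ E₀) (n : ℕ) :
    ∀ k, n + k = Nat.card G + 1 → ∃ a : Subgroup G → ℕ, (∀ E, a E ≠ 0 → r E E) ∧ a E₀ ≠ 0 ∧
      ∀ E E', r E E' → k ≤ Nat.card E → Mk a E = Mk a E' := by
  classical
  induction n with
  | zero =>
    intro k hk
    refine ⟨fun E => if E = E₀ then 1 else 0, ?_, by simp, ?_⟩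
    · intro E hE
      by_cases h : E = E₀
      · rw [h]; exact h₀
      · simp [h] at hE
    · intro E E' _ hk'
      have := Subgroup.card_le_card_group E
      omega
  | succ n ih =>
    intro k hk
    obtain ⟨a, ha, ha₀, hst⟩ := ih (k + 1) (by omega)
    let τ : Subgroup G → ℕ := fun H => ∑ K, if r H K then Mk a K else 0
    have hτ : ∀ H H', r H H' → τ H = τ H' := by
      intro H H' hr
      apply Finset.sum_congr rfl
      intro K _
      have : r H K ↔ r H' K := ⟨fun h => ht _ _ _ (hs _ _ hr) h, fun h => ht _ _ _ hr h⟩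
      simp only [this]
    have hle : ∀ H, r H H → Mk a H ≤ τ H := by
      intro H hH
      have := Finset.single_le_sum (f := fun K => if r H K then Mk a K else 0) (fun _ _ => Nat.zero_le _)
        (Finset.mem_univ H)
      simpa [hH] using this
    let d : Subgroup G → ℕ := fun H => τ H - Mk a H
    let a' : Subgroup G → ℕ := fun E => Nat.card G * a E + if (r E E ∧ Nat.card E = k) then Nat.card E * d E else 0
    have hM : ∀ H : Subgroup G, Mk a' H = Nat.card G * Mk a H +
        ∑ E, (if (r E E ∧ Nat.card E = k) then Nat.card E * d E else 0) * mu E H := by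
      intro H
      simp only [Mk, a', add_mul, Finset.sum_add_distrib, Finset.mul_sum, mul_assoc]
    have hbig : ∀ H : Subgroup G, k + 1 ≤ Nat.card H → Mk a' H = Nat.card G * Mk a H := by
      intro H hH
      rw [hM, Finset.sum_eq_zero, add_zero]
      intro E _
      by_cases hE : r E E ∧ Nat.card E = k
      · rw [mu_eq_zero_of_lt (by omega), mul_zero]
      · rw [if_neg hE, zero_mul]
    have hk' : ∀ H : Subgroup G, r H H → Nat.card H = k → Mk a' H = Nat.card G * τ H := by
      intro H hH hHk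
      rw [hM, sum_card_mul_mu d H ?_ _ ?_ ?_]
      · rw [← mul_add]
        congr 1
        have := hle H hH
        have h5 : d H = τ H - Mk a H := rfl
        omega
      · intro g
        have h1 : r H (cj g H) := hj H g hH
        show τ (cj g H) - Mk a (cj g H) = τ H - Mk a H
        rw [← hτ _ _ h1, Mk_cj]
      · intro g
        exact ⟨ht _ _ _ (hs _ _ (hj H g hH)) (hj H g hH), by rw [card_cj, hHk]⟩
      · rintro E ⟨-, hE⟩
        rw [hE, hHk]
    refine ⟨a', ?_, ?_, ?_⟩
    · intro E hE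
      by_contra h
      have h1 : a E = 0 := by
        by_contra h2
        exact h (ha E h2)
      simp [a', h1, h] at hE
    · intro h
      have : Nat.card G * a E₀ = 0 := (Nat.add_eq_zero_iff.1 h).1
      rcases Nat.mul_eq_zero.1 this with h1 | h1
      · exact Nat.card_pos.ne' h1
      · exact ha₀ h1
    · intro E E' hr hE
      rcases Nat.lt_or_ge k (Nat.card E) with h1 | h1
      · have h2 := hc _ _ hr
        rw [hbig E (by omega), hbig E' (by omega), hst E E' hr h1]
      · have h2 := hc _ _ hr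
        have h3 : Nat.card E = k := by omega
        have hEE : r E E := ht _ _ _ hr (hs _ _ hr)
        have hEE' : r E' E' := ht _ _ _ (hs _ _ hr) hr
        rw [hk' E hEE h3, hk' E' hEE' (by omega), hτ _ _ hr]

/-- The `G`-set of the combination `a` of orbits. -/
abbrev Xa (a : Subgroup G → ℕ) : Type u := Σ p : (Σ E : Subgroup G, Fin (a E)), G ⧸ p.1

theorem smul_sigma_eq_iff (a : Subgroup G → ℕ) (h : G) (p : Σ E : Subgroup G, Fin (a E)) (y : G ⧸ p.1) :
    h • (⟨p, y⟩ : Xa a) = ⟨p, y⟩ ↔ h • y = y := by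
  rw [Sigma.smul_mk]
  constructor
  · exact fun h1 => eq_of_heq (Sigma.mk.inj_iff.1 h1).2
  · intro h1
    rw [h1]

theorem mark_Xa (a : Subgroup G → ℕ) (H : Subgroup G) : mark (Xa a) H = Mk a H := by
  classical
  have e : {x : Xa a // ∀ h ∈ H, h • x = x} ≃ Σ p : (Σ E : Subgroup G, Fin (a E)), {y : G ⧸ p.1 // ∀ h ∈ H, h • y = y} :=
    { toFun := fun x => ⟨x.1.1, x.1.2, fun h hh => by
        have := x.2 h hh
        obtain ⟨⟨p, y⟩, hx⟩ := x
        exact (smul_sigma_eq_iff a h p y).1 this⟩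
      invFun := fun x => ⟨⟨x.1, x.2.1⟩, fun h hh => by
        obtain ⟨p, y, hy⟩ := x
        exact (smul_sigma_eq_iff a h p y).2 (hy h hh)⟩
      left_inv := fun x => rfl
      right_inv := fun x => rfl }
  unfold mark
  rw [Nat.card_congr e, Nat.card_sigma]
  rw [Fintype.sum_sigma]
  unfold Mk
  refine Finset.sum_congr rfl fun E _ => ?_
  show ∑ _y : Fin (a E), mu E H = _
  rw [Finset.sum_const, Finset.card_univ, Fintype.card_fin, smul_eq_mul]

theorem exists_stable (r : Subgroup G → Subgroup G → Prop) (hs : ∀ E E', r E E' → r E' E)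
    (ht : ∀ E E' E'', r E E' → r E' E'' → r E E'') (hc : ∀ E E', r E E' → Nat.card E = Nat.card E')
    (hj : ∀ E (g : G), r E E → r E (cj g E)) (E₀ : Subgroup G) (h₀ : r E₀ E₀) :
    ∃ (X : Type u) (_ : MulAction G X) (_ : Finite X), (∀ x : X, r (MulAction.stabilizer G x) (MulAction.stabilizer G x)) ∧
      (∃ x₀ : X, MulAction.stabilizer G x₀ = E₀) ∧ ∀ E E', r E E' → mark X E = mark X E' := by
  classical
  obtain ⟨a, ha, ha₀, hst⟩ := exists_stable_aux r hs ht hc hj E₀ h₀ (Nat.card G + 1) 0 (by omega)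
  refine ⟨Xa a, inferInstance, inferInstance, ?_, ?_, ?_⟩
  · rintro ⟨⟨E, i⟩, q⟩
    obtain ⟨g, rfl⟩ := QuotientGroup.mk_surjective q
    have hE : r E E := ha E (by
      intro h
      exact (h ▸ i).elim0)
    have : MulAction.stabilizer G (⟨⟨E, i⟩, (g : G ⧸ E)⟩ : Xa a) = cj g E := by
      ext h
      rw [MulAction.mem_stabilizer_iff, mem_cj, ← smul_mk_eq_iff]
      exact smul_sigma_eq_iff a h ⟨E, i⟩ _
    rw [this]
    exact ht _ _ _ (hs _ _ (hj E g hE)) (hj E g hE)
  · have i₀ : Fin (a E₀) := ⟨0, Nat.pos_of_ne_zero ha₀⟩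
    refine ⟨⟨⟨E₀, i₀⟩, ((1 : G) : G ⧸ E₀)⟩, ?_⟩
    ext h
    rw [MulAction.mem_stabilizer_iff]
    refine (smul_sigma_eq_iff a h ⟨E₀, i₀⟩ _).trans ?_
    rw [smul_mk_eq_iff]
    simp
  · intro E E' hr
    rw [mark_Xa, mark_Xa]
    exact hst E E' hr (Nat.zero_le _)

end Main

end Cfsg.Agent.Lib.MarksStable
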