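/-
FusionPark: every fusion system over a finite group is realized in a finite group (Park).

The finite group is the group of automorphisms of the right `S`-set underlying a suitable finite `S × S`-set `X` whose
point stabilizers are graphs of maps of the system, with numbers of fixed points constant on the classes of the relation
"the images of the two graphs are `S`-conjugate".
-/
import Mathlib
import Cfsg.Agent.Lib.MarksStable
import Cfsg.Agent.Lib.FusionAlperin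

set_option autoImplicit false

namespace Cfsg.Agent.Lib.FusionPark

open Cfsg Cfsg.Agent.Lib.Marks Cfsg.Agent.Lib.MarksStable

universe u

section Twist

variable {G : Type*} [Group G] {K : Type*} [Group K]

/-- A type synonym: `X` with the action of `K` through `j`. -/
def Tw (_j : K →* G) (X : Type*) : Type _ := X

instance (j : K →* G) (X : Type*) [MulAction G X] : MulAction K (Tw j X) := MulAction.compHom X j

theorem mark_Tw (j : K →* G) (X : Type*) [MulAction G X] (H : Subgroup K) :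
    mark (Tw j X) H = mark X (H.map j) := by
  unfold mark
  apply Nat.card_congr
  refine ⟨fun x => ⟨x.1, ?_⟩, fun x => ⟨x.1, fun h hh => x.2 _ ⟨h, hh, rfl⟩⟩, fun _ => rfl, fun _ => rfl⟩
  rintro _ ⟨h, hh, rfl⟩
  exact x.2 h hh

theorem exists_twist [Finite K] {X : Type*} [MulAction G X] [Finite X] (j₁ j₂ : K →* G)
    (h : ∀ H : Subgroup K, mark X (H.map j₁) = mark X (H.map j₂)) :
    ∃ f : Equiv.Perm X, ∀ (k : K) (x : X), f (j₁ k • x) = j₂ k • f x := by
  haveI : Finite (Tw j₁ X) := ‹Finite X›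
  haveI : Finite (Tw j₂ X) := ‹Finite X›
  obtain ⟨f, hf⟩ := exists_equiv_of_marks (G := K) (X := Tw j₁ X) (Y := Tw j₂ X)
    (fun H => by rw [mark_Tw, mark_Tw, h])
  exact ⟨f, hf⟩

end Twist

section Fusion

variable {Ω : Type u} [Group Ω] {S : Subgroup Ω} (F : FusionSystem S)

/-- `E` is the graph of a map of the system. -/
def IsGraph (E : Subgroup (S × S)) : Prop :=
  ∃ (R : Subgroup Ω) (χ : R →* Ω), χ ∈ F.Hom R ∧ ∀ a b : S, (a, b) ∈ E ↔ ∃ h : (a : Ω) ∈ R, χ ⟨a, h⟩ = b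

variable {F}

theorem IsGraph.of_le {E H : Subgroup (S × S)} (hE : IsGraph F E) (hH : H ≤ E) : IsGraph F H := by
  obtain ⟨R, χ, hχ, hm⟩ := hE
  let R' : Subgroup Ω := (H.map (MonoidHom.fst S S)).map S.subtype
  have hR' : R' ≤ R := by
    rintro _ ⟨_, ⟨⟨a, b⟩, hv, rfl⟩, rfl⟩
    exact ((hm a b).1 (hH hv)).1
  refine ⟨R', χ.comp (Subgroup.inclusion hR'), Cfsg.Agent.Lib.FusionAlperin.restrict_mem hχ hR', fun a b => ?_⟩
  constructor
  · intro hv
    obtain ⟨h1, h2⟩ := (hm a b).1 (hH hv)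
    exact ⟨⟨_, ⟨(a, b), hv, rfl⟩, rfl⟩, h2⟩
  · rintro ⟨h, h2⟩
    obtain ⟨_, ⟨⟨a', b'⟩, hv, rfl⟩, h3⟩ := h
    have h4 : a' = a := Subtype.ext h3
    subst h4
    obtain ⟨h5, h6⟩ := (hm a' b').1 (hH hv)
    have h7 : b' = b := Subtype.ext (h6.symm.trans h2)
    rwa [h7] at hv

theorem IsGraph.cj {E : Subgroup (S × S)} (hE : IsGraph F E) (g : S × S) : IsGraph F (cj g E) := by
  obtain ⟨R, χ, hχ, hm⟩ := hE
  have hRS : R ≤ S := (F.le_of_mem hχ).1
  let R' : Subgroup Ω := R.map (MulAut.conj (g.1 : Ω)).toMonoidHom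
  have hR' : R' ≤ S := by
    rintro _ ⟨x, hx, rfl⟩
    exact S.mul_mem (S.mul_mem g.1.2 (hRS hx)) (S.inv_mem g.1.2)
  have hα := F.conj_mem hR' (S.inv_mem g.1.2)
  have hαv : ∀ x : R', conjHom R' (g.1 : Ω)⁻¹ x ∈ R := by
    rintro ⟨_, x, hx, rfl⟩
    simpa [conjHom, mul_assoc] using hx
  have h2 := F.comp_mem hα hχ hαv
  have h3 := F.comp_mem h2 (F.conj_mem (le_refl S) g.2.2) (fun x => (F.le_of_mem h2).2 x)
  refine ⟨R', _, h3, fun a b => ?_⟩
  have hmem : (a, b) ∈ MarksStable.cj g E ↔ ((g.1⁻¹ * a * g.1, g.2⁻¹ * b * g.2) : S × S) ∈ E := by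
    rw [mem_cj]
    rfl
  rw [hmem, hm]
  have ha : (a : Ω) ∈ R' ↔ ((g.1⁻¹ * a * g.1 : S) : Ω) ∈ R := by
    constructor
    · rintro ⟨x, hx, hxe⟩
      have : ((g.1⁻¹ * a * g.1 : S) : Ω) = x := by
        have hxe' : (g.1 : Ω) * x * (g.1 : Ω)⁻¹ = a := hxe
        show (g.1 : Ω)⁻¹ * a * g.1 = x
        rw [← hxe']
        group
      rwa [this]
    · intro h
      refine ⟨_, h, ?_⟩
      simp [mul_assoc]
  have hval : ∀ (h : (a : Ω) ∈ R') (h1 : ((g.1⁻¹ * a * g.1 : S) : Ω) ∈ R),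
      ((conjHom S (g.2 : Ω)).comp ((χ.comp ((conjHom R' (g.1 : Ω)⁻¹).codRestrict R hαv)).codRestrict S
        (fun x => (F.le_of_mem h2).2 x))) ⟨a, h⟩ = (g.2 : Ω) * χ ⟨_, h1⟩ * (g.2 : Ω)⁻¹ := by
    intro h h1
    show (g.2 : Ω) * χ _ * (g.2 : Ω)⁻¹ = _
    congr 3
    apply Subtype.ext
    show (g.1 : Ω)⁻¹ * a * ((g.1 : Ω)⁻¹)⁻¹ = (g.1 : Ω)⁻¹ * a * g.1
    rw [inv_inv]
  constructor
  · rintro ⟨h1, h2'⟩
    refine ⟨ha.2 h1, ?_⟩
    rw [hval _ h1, h2']
    show (g.2 : Ω) * ((g.2 : Ω)⁻¹ * b * g.2) * (g.2 : Ω)⁻¹ = b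
    group
  · rintro ⟨h1, h2'⟩
    refine ⟨ha.1 h1, ?_⟩
    rw [hval h1 (ha.1 h1)] at h2'
    rw [show ((g.2⁻¹ * b * g.2 : S) : Ω) = (g.2 : Ω)⁻¹ * b * g.2 from rfl, ← h2']
    group

theorem IsGraph.snd_injective {E : Subgroup (S × S)} (hE : IsGraph F E) :
    Function.Injective ((MonoidHom.snd S S).comp E.subtype) := by
  obtain ⟨R, χ, hχ, hm⟩ := hE
  rw [injective_iff_map_eq_one]
  rintro ⟨⟨a, b⟩, hv⟩ h
  have hb : b = 1 := h
  subst hb
  obtain ⟨h1, h2⟩ := (hm a 1).1 hv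
  have h3 : (⟨a, h1⟩ : R) = 1 := F.injective_of_mem hχ (by rw [h2, map_one]; rfl)
  have h3' : (a : Ω) = 1 := congrArg (fun z : R => (z : Ω)) h3
  have h4 : a = 1 := Subtype.ext h3'
  subst h4
  rfl

theorem IsGraph.card_map {E : Subgroup (S × S)} (hE : IsGraph F E) :
    Nat.card (E.map (MonoidHom.snd S S)) = Nat.card E := by
  have h1 := hE.snd_injective
  have h2 := Nat.card_congr (MonoidHom.ofInjective h1).toEquiv
  rw [h2, MonoidHom.range_comp, Subgroup.range_subtype]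

/-- Both graphs have images that are `S`-conjugate. -/
def Rel (F : FusionSystem S) (E E' : Subgroup (S × S)) : Prop :=
  IsGraph F E ∧ IsGraph F E' ∧ ∃ g : S, E'.map (MonoidHom.snd S S) = MarksStable.cj g (E.map (MonoidHom.snd S S))

theorem cj_cj {G : Type*} [Group G] (g h : G) (K : Subgroup G) : MarksStable.cj g (MarksStable.cj h K) = MarksStable.cj (g * h) K := by
  ext x
  simp only [mem_cj, mul_inv_rev]
  simp [mul_assoc]

theorem cj_one {G : Type*} [Group G] (K : Subgroup G) : MarksStable.cj (1 : G) K = K := by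
  ext x
  simp only [mem_cj]
  simp

theorem Rel.symm {E E' : Subgroup (S × S)} (h : Rel F E E') : Rel F E' E := by
  obtain ⟨h1, h2, g, hg⟩ := h
  refine ⟨h2, h1, g⁻¹, ?_⟩
  rw [hg, cj_cj, inv_mul_cancel, cj_one]

theorem Rel.trans {E E' E'' : Subgroup (S × S)} (h : Rel F E E') (h' : Rel F E' E'') : Rel F E E'' := by
  obtain ⟨h1, h2, g, hg⟩ := h
  obtain ⟨_, h4, g', hg'⟩ := h'
  refine ⟨h1, h4, g' * g, ?_⟩
  rw [hg', hg, cj_cj]

theorem Rel.card {E E' : Subgroup (S × S)} (h : Rel F E E') : Nat.card E = Nat.card E' := by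
  obtain ⟨h1, h2, g, hg⟩ := h
  rw [← h1.card_map, ← h2.card_map, hg, card_cj]

theorem map_snd_cj (g : S × S) (E : Subgroup (S × S)) :
    (MarksStable.cj g E).map (MonoidHom.snd S S) = MarksStable.cj g.2 (E.map (MonoidHom.snd S S)) := by
  ext x
  constructor
  · rintro ⟨⟨a, b⟩, hv, rfl⟩
    rw [mem_cj]
    exact ⟨_, mem_cj.1 hv, rfl⟩
  · intro hx
    obtain ⟨⟨a, b⟩, hv, hb⟩ := mem_cj.1 hx
    refine ⟨g * (a, b) * g⁻¹, mem_cj.2 ?_, ?_⟩
    · simpa [mul_assoc] using hv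
    · have hb' : b = g.2⁻¹ * x * g.2 := hb
      show g.2 * b * g.2⁻¹ = x
      rw [hb']
      group

theorem Rel.of_graph {E : Subgroup (S × S)} (h : IsGraph F E) (g : S × S) : Rel F E (MarksStable.cj g E) :=
  ⟨h, h.cj g, g.2, map_snd_cj g E⟩

/-- The diagonal. -/
def diag (S : Subgroup Ω) : Subgroup (S × S) := (MonoidHom.id S).graph

theorem mem_diag {a b : S} : (a, b) ∈ diag S ↔ a = b := Iff.rfl

theorem isGraph_diag : IsGraph F (diag S) := by
  refine ⟨S, conjHom S 1, F.conj_mem le_rfl S.one_mem, fun a b => ?_⟩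
  rw [mem_diag]
  constructor
  · rintro rfl
    refine ⟨a.2, ?_⟩
    simp [conjHom]
  · rintro ⟨h, h2⟩
    apply Subtype.ext
    rw [← h2]
    simp [conjHom]

theorem exists_biset [Finite S] (F : FusionSystem S) : ∃ (X : Type u) (_ : MulAction (S × S) X) (_ : Finite X),
    (∀ x : X, IsGraph F (MulAction.stabilizer (S × S) x)) ∧ (∃ x₀ : X, MulAction.stabilizer (S × S) x₀ = diag S) ∧
      ∀ E E', Rel F E E' → mark X E = mark X E' := by
  haveI : Fintype (Subgroup (S × S)) := Fintype.ofFinite _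
  obtain ⟨X, i, hf, h1, h2, h3⟩ := exists_stable (G := S × S) (Rel F) (fun _ _ h => h.symm) (fun _ _ _ h h' => h.trans h')
    (fun _ _ h => h.card) (fun _ g h => Rel.of_graph h.1 g) (diag S)
    (Rel.trans (Rel.of_graph isGraph_diag 1) (by
      have := (Rel.of_graph (F := F) isGraph_diag (1 : S × S)).symm
      exact this))
  exact ⟨X, i, hf, fun x => (h1 x).1, h2, h3⟩

/-- Fixed points of a non-graph. -/
theorem mark_eq_zero {X : Type*} [MulAction (S × S) X] (hX : ∀ x : X, IsGraph F (MulAction.stabilizer (S × S) x))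
    {E : Subgroup (S × S)} (hE : ¬ IsGraph F E) : mark X E = 0 := by
  by_contra h
  obtain ⟨x, hx⟩ := exists_of_mark_ne_zero h
  exact hE ((hX x).of_le hx)

/-- The first of the two embeddings of `P × S`. -/
def jl {P : Subgroup Ω} (hP : P ≤ S) : (P × S) →* (S × S) := MonoidHom.prodMap (Subgroup.inclusion hP) (MonoidHom.id S)

/-- The second of the two embeddings of `P × S`. -/
def jr {P : Subgroup Ω} {φ : P →* Ω} (hφ : ∀ x : P, φ x ∈ S) : (P × S) →* (S × S) :=
  MonoidHom.prodMap (φ.codRestrict S hφ) (MonoidHom.id S)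

theorem map_jl_snd {P : Subgroup Ω} (hP : P ≤ S) (H : Subgroup (P × S)) :
    (H.map (jl hP)).map (MonoidHom.snd S S) = H.map (MonoidHom.snd P S) := by
  rw [Subgroup.map_map]
  rfl

theorem map_jr_snd {P : Subgroup Ω} {φ : P →* Ω} (hφ : ∀ x : P, φ x ∈ S) (H : Subgroup (P × S)) :
    (H.map (jr hφ)).map (MonoidHom.snd S S) = H.map (MonoidHom.snd P S) := by
  rw [Subgroup.map_map]
  rfl

theorem isGraph_move1 {P : Subgroup Ω} {φ : P →* Ω} (hφF : φ ∈ F.Hom P) (hP : P ≤ S) (hφ : ∀ x : P, φ x ∈ S)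
    {H : Subgroup (P × S)} (h : IsGraph F (H.map (jl hP))) : IsGraph F (H.map (jr hφ)) := by
  obtain ⟨R, χ, hχ, hm⟩ := h
  -- `R ≤ P`
  have hRS : R ≤ S := (F.le_of_mem hχ).1
  have hRP : R ≤ P := by
    intro r hr
    have h1 : ((⟨r, hRS hr⟩ : S), (⟨χ ⟨r, hr⟩, (F.le_of_mem hχ).2 _⟩ : S)) ∈ H.map (jl hP) :=
      (hm _ _).2 ⟨hr, rfl⟩
    obtain ⟨⟨p, b⟩, -, h2⟩ := h1
    have h3 : (p : Ω) = r := congrArg (fun z : S × S => (z.1 : Ω)) h2
    rw [← h3]
    exact p.2
  have hφR := Cfsg.Agent.Lib.FusionAlperin.restrict_mem hφF hRP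
  obtain ⟨ψ, hψ, hψv⟩ := F.inv_mem hφR
  have hψR : ∀ x : (φ.comp (Subgroup.inclusion hRP)).range, ψ x ∈ R := by
    rintro ⟨_, r, rfl⟩
    rw [hψv]
    exact r.2
  refine ⟨_, _, F.comp_mem hψ hχ hψR, fun a b => ?_⟩
  constructor
  · rintro ⟨⟨p, b'⟩, hv, hj⟩
    have h1 : (φ.codRestrict S hφ p) = a := congrArg Prod.fst hj
    have h2 : b' = b := congrArg Prod.snd hj
    subst h2
    have h3 : ((⟨p, hP p.2⟩ : S), b') ∈ H.map (jl hP) := ⟨(p, b'), hv, rfl⟩
    obtain ⟨hr, hb⟩ := (hm _ _).1 h3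
    have ha : (a : Ω) = (φ.comp (Subgroup.inclusion hRP)) ⟨p, hr⟩ := by
      rw [← h1]
      rfl
    refine ⟨⟨⟨p, hr⟩, ha.symm⟩, ?_⟩
    rw [← hb]
    show χ (_) = _
    congr 1
    apply Subtype.ext
    show ψ _ = (p : Ω)
    exact (congrArg ψ (Subtype.ext ha)).trans (hψv ⟨p, hr⟩)
  · rintro ⟨⟨r, hr⟩, hb⟩
    have hrv : ψ ⟨a, ⟨r, hr⟩⟩ = (r : Ω) :=
      (congrArg ψ (Subtype.ext hr.symm)).trans (hψv r)
    have hb' : χ r = b := by
      rw [← hb]
      show χ _ = χ _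
      congr 1
      exact Subtype.ext hrv.symm
    have h3 : ((⟨r, hRS r.2⟩ : S), b) ∈ H.map (jl hP) := (hm _ _).2 ⟨r.2, hb'⟩
    obtain ⟨⟨p, b'⟩, hv, hj⟩ := h3
    have h4 : (p : Ω) = r := congrArg (fun z : S × S => (z.1 : Ω)) hj
    have h5 : b' = b := congrArg Prod.snd hj
    subst h5
    refine ⟨(p, b'), hv, ?_⟩
    refine Prod.ext (Subtype.ext ?_) rfl
    show φ p = a
    rw [← hr]
    show φ p = φ _
    congr 1
    exact Subtype.ext h4

theorem isGraph_move2 {P : Subgroup Ω} {φ : P →* Ω} (hφF : φ ∈ F.Hom P) (hP : P ≤ S) (hφ : ∀ x : P, φ x ∈ S)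
    {H : Subgroup (P × S)} (h : IsGraph F (H.map (jr hφ))) : IsGraph F (H.map (jl hP)) := by
  obtain ⟨R, χ, hχ, hm⟩ := h
  let R' : Subgroup Ω := (R.comap φ).map P.subtype
  have hR'P : R' ≤ P := by
    rintro _ ⟨x, -, rfl⟩
    exact x.2
  have h1 := Cfsg.Agent.Lib.FusionAlperin.restrict_mem hφF hR'P
  have hR : ∀ x : R', (φ.comp (Subgroup.inclusion hR'P)) x ∈ R := by
    rintro ⟨_, x, hx, rfl⟩
    exact hx
  refine ⟨R', _, F.comp_mem h1 hχ hR, fun a b => ?_⟩
  constructor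
  · rintro ⟨⟨p, b'⟩, hv, hj⟩
    have h2 : (p : Ω) = a := congrArg (fun z : S × S => (z.1 : Ω)) hj
    have h3 : b' = b := congrArg Prod.snd hj
    subst h3
    have h4 : ((φ.codRestrict S hφ p), b') ∈ H.map (jr hφ) := ⟨(p, b'), hv, rfl⟩
    obtain ⟨hr, hb⟩ := (hm _ _).1 h4
    have ha : (a : Ω) ∈ R' := ⟨p, hr, h2⟩
    refine ⟨ha, ?_⟩
    rw [← hb]
    show χ _ = χ _
    congr 1
    apply Subtype.ext
    show φ _ = φ _
    congr 1
    exact Subtype.ext h2.symm
  · rintro ⟨ha, hb⟩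
    obtain ⟨p, hr, hp⟩ := id ha
    have hpa : (⟨p, hP p.2⟩ : S) = a := Subtype.ext hp
    have hb' : χ ⟨φ p, hr⟩ = b := by
      rw [← hb]
      show χ _ = χ _
      congr 1
      apply Subtype.ext
      show φ _ = φ _
      congr 1
      exact Subtype.ext hp
    have h3 : ((φ.codRestrict S hφ p), b) ∈ H.map (jr hφ) := (hm _ _).2 ⟨hr, hb'⟩
    obtain ⟨⟨p', b'⟩, hv, hj⟩ := h3
    have h4 : φ p' = φ p := congrArg (fun z : S × S => (z.1 : Ω)) hj
    have h5 : b' = b := congrArg Prod.snd hj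
    have h6 : p' = p := F.injective_of_mem hφF h4
    subst h5 h6
    refine ⟨(p', b'), hv, ?_⟩
    refine Prod.ext hpa rfl

theorem mark_jl_jr {X : Type*} [MulAction (S × S) X] (hX : ∀ x : X, IsGraph F (MulAction.stabilizer (S × S) x))
    (hst : ∀ E E', Rel F E E' → mark X E = mark X E')
    {P : Subgroup Ω} {φ : P →* Ω} (hφF : φ ∈ F.Hom P) (hP : P ≤ S) (hφ : ∀ x : P, φ x ∈ S)
    (H : Subgroup (P × S)) : mark X (H.map (jl hP)) = mark X (H.map (jr hφ)) := by
  by_cases h : IsGraph F (H.map (jl hP))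
  · apply hst
    refine ⟨h, isGraph_move1 hφF hP hφ h, 1, ?_⟩
    rw [cj_one, map_jl_snd, map_jr_snd]
  · rw [mark_eq_zero hX h, mark_eq_zero hX (fun h' => h (isGraph_move2 hφF hP hφ h'))]

section Real

variable (S) (X : Type u) [MulAction (S × S) X]

/-- The permutations of `X` commuting with the right action of `S`. -/
def Gr : Subgroup (Equiv.Perm X) where
  carrier := {f | ∀ (b : S) (x : X), f (((1 : S), b) • x) = ((1 : S), b) • f x}
  mul_mem' := by
    intro f f' hf hf' b x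
    show f (f' _) = _ • f (f' x)
    rw [hf', hf]
  one_mem' := fun _ _ => rfl
  inv_mem' := by
    intro f hf b x
    rw [Equiv.Perm.inv_eq_iff_eq, hf]
    congr 1
    exact (f.apply_symm_apply x).symm

/-- The left action of `S` on `X`. -/
def lam : S →* Gr S X where
  toFun t := ⟨MulAction.toPerm ((t, (1 : S)) : S × S), fun b x => by
    show (t, (1 : S)) • ((1 : S), b) • x = ((1 : S), b) • (t, (1 : S)) • x
    rw [smul_smul, smul_smul]
    simp⟩
  map_one' := by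
    apply Subtype.ext
    ext x
    show ((1 : S), (1 : S)) • x = x
    exact one_smul (S × S) x
  map_mul' := by
    intro t t'
    apply Subtype.ext
    ext x
    show ((t * t', (1 : S)) : S × S) • x = (t, (1 : S)) • (t', (1 : S)) • x
    rw [smul_smul]
    simp

theorem lam_apply (t : S) (x : X) : ((lam S X t : Gr S X) : Equiv.Perm X) x = ((t, (1 : S)) : S × S) • x := rfl

end Real

theorem realized [Finite S] (F : FusionSystem S) : ∃ (G : Type u) (_ : Group G) (_ : Finite G) (ι : ↥S →* G), F.IsRealizedBy ι := by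
  obtain ⟨X, i, hf, hX, ⟨x₀, hx₀⟩, hst⟩ := exists_biset F
  refine ⟨Gr S X, inferInstance, inferInstance, lam S X, ?_, ?_⟩
  · intro t t' htt
    have h1 : ((t, (1 : S)) : S × S) • x₀ = ((t', (1 : S)) : S × S) • x₀ := by
      have := congrArg (fun z : Gr S X => (z : Equiv.Perm X) x₀) htt
      exact this
    have h2 : ((t'⁻¹ * t, (1 : S)) : S × S) ∈ MulAction.stabilizer (S × S) x₀ := by
      rw [MulAction.mem_stabilizer_iff]
      have : ((t'⁻¹ * t, (1 : S)) : S × S) = (t'⁻¹, (1 : S)) * (t, (1 : S)) := by simp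
      rw [this, mul_smul, h1, smul_smul]
      simp only [Prod.mk_mul_mk, inv_mul_cancel, mul_one]
      exact one_smul (S × S) x₀
    rw [hx₀, mem_diag] at h2
    rw [inv_mul_eq_one] at h2
    exact h2.symm
  · intro P hP φ hφ
    constructor
    · intro hφF
      haveI : Finite P := Finite.of_injective (Subgroup.inclusion hP) (Subgroup.inclusion_injective hP)
      obtain ⟨f, hf'⟩ := exists_twist (jl hP) (jr hφ) (mark_jl_jr hX hst hφF hP hφ)
      refine ⟨⟨f, fun b x => ?_⟩, fun x => ?_⟩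
      · have h1 : jr hφ ((1 : P), b) = ((1 : S), b) := by
          refine Prod.ext (Subtype.ext ?_) rfl
          exact map_one φ
        have h2 : jl hP ((1 : P), b) = ((1 : S), b) := rfl
        have h3 := hf' (1, b) x
        rwa [h1, h2] at h3
      · rw [eq_mul_inv_iff_mul_eq]
        apply Subtype.ext
        ext y
        exact (hf' (x, 1) y).symm
    · rintro ⟨g, hg⟩
      have hg' : ∀ x : P, lam S X ⟨φ x, hφ x⟩ * g = g * lam S X ⟨x, hP x.2⟩ := fun x => by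
        rw [hg x, inv_mul_cancel_right]
      have hg2 : ∀ (p : P) (x : X), (((⟨φ p, hφ p⟩ : S), (1 : S)) : S × S) • (g : Equiv.Perm X) x =
          (g : Equiv.Perm X) ((((⟨p, hP p.2⟩ : S), (1 : S)) : S × S) • x) := fun p x => by
        have := congrArg (fun z : Gr S X => (z : Equiv.Perm X) x) (hg' p)
        exact this
      have hgr : ∀ (b : S) (x : X), (g : Equiv.Perm X) (((1 : S), b) • x) = ((1 : S), b) • (g : Equiv.Perm X) x := g.2
      let y : X := (g : Equiv.Perm X) x₀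
      have hst1 : ∀ p : P, (((⟨φ p, hφ p⟩ : S), (⟨p, hP p.2⟩ : S)) : S × S) ∈ MulAction.stabilizer (S × S) y := by
        intro p
        rw [MulAction.mem_stabilizer_iff]
        set a : S := ⟨p, hP p.2⟩ with ha
        have h0 : ((a, a) : S × S) ∈ MulAction.stabilizer (S × S) x₀ := by
          rw [hx₀, mem_diag]
        rw [MulAction.mem_stabilizer_iff] at h0
        have h3 : ((⟨φ p, hφ p⟩ : S), a) = (((⟨φ p, hφ p⟩ : S), (1 : S)) : S × S) * ((1 : S), a) := by simp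
        rw [h3, mul_smul]
        have h4 : ((1 : S), a) • y = (g : Equiv.Perm X) (((1 : S), a) • x₀) := (hgr a x₀).symm
        rw [h4, hg2, smul_smul]
        have h5 : ((a, (1 : S)) : S × S) * ((1 : S), a) = (a, a) := by simp
        rw [h5, h0]
      let H : Subgroup (S × S) := ((φ.codRestrict S hφ).prod (Subgroup.inclusion hP)).range
      have hH : H ≤ MulAction.stabilizer (S × S) y := by
        rintro _ ⟨p, rfl⟩
        exact hst1 p
      obtain ⟨R, χ, hχ, hm⟩ := (hX y).of_le hH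
      have h1 : ∀ p : P, ∃ h : φ p ∈ R, χ ⟨φ p, h⟩ = p := fun p =>
        (hm ⟨φ p, hφ p⟩ ⟨p, hP p.2⟩).1 ⟨p, rfl⟩
      obtain ⟨ψ, hψ, hψv⟩ := F.inv_mem hχ
      have hPr : ∀ x : P, conjHom P 1 x ∈ χ.range := by
        intro x
        obtain ⟨h, h2⟩ := h1 x
        refine ⟨⟨φ x, h⟩, ?_⟩
        rw [h2]
        simp [conjHom]
      have h3 := F.comp_mem (F.conj_mem hP S.one_mem) hψ hPr
      convert h3 using 1
      ext p
      obtain ⟨h, h2⟩ := h1 p
      have h4 : φ p = ψ ⟨χ ⟨φ p, h⟩, ⟨_, rfl⟩⟩ := (hψv ⟨φ p, h⟩).symm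
      rw [h4]
      show _ = ψ _
      congr 1
      apply Subtype.ext
      show χ _ = _
      rw [h2]
      simp [conjHom]

end Fusion

end Cfsg.Agent.Lib.FusionPark
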