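/-
FusionRealSys: the fusion system over `S` induced through an injective homomorphism `ι : S →* G`.
It is saturated when the image of `ι` is a Sylow subgroup; and a subgroup of the image normalized by an element
acting with order three gives a system in which `S` is not normal, if the automorphism group of `S` is a 2-group.
-/
import Mathlib
import Cfsg.Agent.Lib.FusionCore
import Cfsg.Agent.Lib.FusionIso
import Cfsg.Agent.S5076

set_option autoImplicit false

namespace Cfsg.Agent.Lib.FusionRealSys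

open Cfsg Cfsg.FusionSystem Cfsg.Agent.Lib.FusionCore

variable {Ω : Type*} [Group Ω] {S : Subgroup Ω} {G : Type*} [Group G]

lemma inj_aux (ι : S →* G) (hι : Function.Injective ι) {P : Subgroup Ω} {φ : P →* Ω} (hP : P ≤ S)
    (hφ : ∀ x : P, φ x ∈ S) (g : G) (hg : ∀ x : P, ι ⟨φ x, hφ x⟩ = g * ι ⟨x, hP x.2⟩ * g⁻¹) :
    Function.Injective φ := by
  intro x y hxy
  have h1 : ι ⟨φ x, hφ x⟩ = ι ⟨φ y, hφ y⟩ := by
    congr 2
  rw [hg, hg] at h1
  have h2 : ι ⟨x, hP x.2⟩ = ι ⟨y, hP y.2⟩ := by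
    simpa using h1
  exact Subtype.ext (congrArg (fun z : S => (z : Ω)) (hι h2))

/-- The fusion system induced through `ι`. -/
def realSys (ι : S →* G) (hι : Function.Injective ι) : FusionSystem S where
  Hom P := {φ | ∃ (hP : P ≤ S) (hφ : ∀ x : P, φ x ∈ S) (g : G),
    ∀ x : P, ι ⟨φ x, hφ x⟩ = g * ι ⟨x, hP x.2⟩ * g⁻¹}
  le_of_mem := by
    rintro P φ ⟨hP, hφ, g, hg⟩
    exact ⟨hP, hφ⟩
  injective_of_mem := by
    rintro P φ ⟨hP, hφ, g, hg⟩
    exact inj_aux ι hι hP hφ g hg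
  conj_mem := by
    rintro P g hP hg
    refine ⟨hP, fun x => S.mul_mem (S.mul_mem hg (hP x.2)) (S.inv_mem hg), ι ⟨g, hg⟩, fun x => ?_⟩
    have : (⟨conjHom P g x, S.mul_mem (S.mul_mem hg (hP x.2)) (S.inv_mem hg)⟩ : S) =
        ⟨g, hg⟩ * ⟨x, hP x.2⟩ * (⟨g, hg⟩ : S)⁻¹ := rfl
    rw [this, map_mul, map_mul, map_inv]
  comp_mem := by
    rintro P Q φ ψ ⟨hP, hφ, g, hg⟩ ⟨hQ, hψ, g', hg'⟩ h
    refine ⟨hP, fun x => hψ _, g' * g, fun x => ?_⟩
    have h1 := hg' ⟨φ x, h x⟩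
    have h2 := hg x
    have h3 : (⟨φ x, hQ (h x)⟩ : S) = ⟨φ x, hφ x⟩ := rfl
    calc ι ⟨ψ ⟨φ x, h x⟩, _⟩ = g' * ι ⟨φ x, hφ x⟩ * g'⁻¹ := h1
      _ = _ := by rw [h2]; group
  inv_mem := by
    rintro P φ ⟨hP, hφ, g, hg⟩
    have hinj := inj_aux ι hι hP hφ g hg
    let e := MonoidHom.ofInjective hinj
    refine ⟨P.subtype.comp e.symm.toMonoidHom, ?_, fun x => ?_⟩
    · refine ⟨?_, fun y => hP (e.symm y).2, g⁻¹, fun y => ?_⟩
      · rintro _ ⟨x, rfl⟩
        exact hφ x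
      · obtain ⟨x, rfl⟩ := e.surjective y
        have h1 : ((P.subtype.comp e.symm.toMonoidHom) (e x) : Ω) = x := by
          simp
        have h2 := hg x
        have h3 : (⟨((e x : φ.range) : Ω), by
            obtain ⟨z, hz⟩ := (e x).2
            rw [← hz]
            exact hφ z⟩ : S) = ⟨φ x, hφ x⟩ := rfl
        rw [h3, h2]
        have h4 : (⟨(P.subtype.comp e.symm.toMonoidHom) (e x), hP (e.symm (e x)).2⟩ : S) =
            ⟨x, hP x.2⟩ := Subtype.ext h1
        rw [h4]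
        group
    · have : e x = ⟨φ x, ⟨x, rfl⟩⟩ := rfl
      rw [← this]
      simp

theorem realSys_isRealizedBy (ι : S →* G) (hι : Function.Injective ι) : (realSys ι hι).IsRealizedBy ι :=
  ⟨hι, fun _ hP _ hφ => ⟨fun ⟨_, _, g, hg⟩ => ⟨g, hg⟩, fun ⟨g, hg⟩ => ⟨hP, hφ, g, hg⟩⟩⟩

theorem realSys_isSaturated [Finite G] [Finite S] {p : ℕ} [Fact p.Prime] (hS : IsPGroup p S)
    (ι : S →* G) (hι : Function.Injective ι) (T : Sylow p G) (hT : (T : Subgroup G) = ι.range) :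
    (realSys ι hι).IsSaturated p := by
  obtain ⟨I, -⟩ := Cfsg.Agent.Lib.FusionIso.exists_iso_of_realized (realSys_isRealizedBy ι hι) hT
  have h := Cfsg.Agent.S5076.result p T
  exact I.isSaturated hS h

/-- A system in which `S` is not normal. -/
theorem exists_not_normal [Finite G] [Finite S] (hS : IsPGroup 2 S) (hA : IsPGroup 2 (MulAut S))
    [Fact (Nat.Prime 2)] (T : Sylow 2 G) (e : S ≃* T) (R : Subgroup G) (hRT : R ≤ T) (g : G)
    (hg : ∀ x ∈ R, g * x * g⁻¹ ∈ R) (hg3 : ∀ x ∈ R, g ^ 3 * x = x * g ^ 3)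
    (hne : ∃ x ∈ R, g * x * g⁻¹ ≠ x) : ∃ F : FusionSystem S, F.IsSaturated 2 ∧ ¬ F.IsNormal S := by
  classical
  let ι : S →* G := (T : Subgroup G).subtype.comp e.toMonoidHom
  have hι : Function.Injective ι := fun a b h => e.injective (Subtype.ext h)
  have hrange : (T : Subgroup G) = ι.range := by
    ext u
    constructor
    · intro hu
      exact ⟨e.symm ⟨u, hu⟩, by simp [ι]⟩
    · rintro ⟨y, rfl⟩
      exact (e y).2
  have hsurj : ∀ u ∈ (T : Subgroup G), ∃ y : S, ι y = u := fun u hu => by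
    rw [hrange] at hu
    exact hu
  refine ⟨realSys ι hι, realSys_isSaturated hS ι hι T hrange, fun hN => ?_⟩
  let F := realSys ι hι
  -- the subgroup `P`
  let P : Subgroup Ω := (R.comap ι).map S.subtype
  have hPS : P ≤ S := Subgroup.map_subtype_le _
  have hPmem : ∀ x : P, ι ⟨x, hPS x.2⟩ ∈ R := by
    rintro ⟨_, y, hy, rfl⟩
    exact hy
  have hcm : ∀ x : P, g * ι ⟨x, hPS x.2⟩ * g⁻¹ ∈ ι.range := fun x => by
    rw [← hrange]
    exact hRT (hg _ (hPmem x))
  -- the map `φ`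
  let φ : P →* Ω :=
    { toFun := fun x => ((Classical.choose (hcm x) : S) : Ω)
      map_one' := by
        have h1 := Classical.choose_spec (hcm 1)
        have h2 : ι ⟨((1 : P) : Ω), hPS (1 : P).2⟩ = 1 := by
          have : (⟨((1 : P) : Ω), hPS (1 : P).2⟩ : S) = 1 := rfl
          rw [this, map_one]
        have h3 : ι (Classical.choose (hcm 1)) = ι 1 := by
          refine h1.trans ?_
          rw [h2, map_one]
          group
        have h4 := hι h3
        rw [h4]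
        rfl
      map_mul' := fun x y => by
        have h1 := Classical.choose_spec (hcm (x * y))
        have h2 := Classical.choose_spec (hcm x)
        have h3 := Classical.choose_spec (hcm y)
        have h4 : ι ⟨((x * y : P) : Ω), hPS (x * y).2⟩ = ι ⟨x, hPS x.2⟩ * ι ⟨y, hPS y.2⟩ := by
          rw [← map_mul]
          rfl
        have h5 : ι (Classical.choose (hcm (x * y))) =
            ι (Classical.choose (hcm x) * Classical.choose (hcm y)) := by
          rw [map_mul, h1, h2, h3, h4]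
          group
        have h6 := hι h5
        rw [h6]
        rfl }
  have hφS : ∀ x : P, φ x ∈ S := fun x => (Classical.choose (hcm x)).2
  have hφι : ∀ x : P, ι ⟨φ x, hφS x⟩ = g * ι ⟨x, hPS x.2⟩ * g⁻¹ := fun x =>
    Classical.choose_spec (hcm x)
  have hφm : φ ∈ F.Hom P := ⟨hPS, hφS, g, hφι⟩
  obtain ⟨-, hext⟩ := isNormal_iff.1 hN
  obtain ⟨f', hf', h1, h2⟩ := hext P _ (Maps.of_mem hφm)
  rw [sup_eq_right.2 hPS] at hf'
  let α : MulAut S := hf'.toAut h2
  have hαS : ∀ y : S, ι y ∈ R → ι (α y) = g * ι y * g⁻¹ := by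
    intro y hy
    have hyP : (y : Ω) ∈ P := ⟨y, hy, rfl⟩
    have h3 : ((α y : S) : Ω) = φ ⟨y, hyP⟩ := by
      have h4 := hf'.afn_toAut h2 y.2
      rw [afn_coe] at h4
      rw [h4, h1 _ hyP, fn_of_mem φ hyP]
    have h4 : α y = ⟨φ ⟨y, hyP⟩, hφS ⟨y, hyP⟩⟩ := Subtype.ext h3
    rw [h4, hφι]
  have hiter : ∀ j : ℕ, ∀ y : S, ι y ∈ R → ι ((α ^ j) y) = g ^ j * ι y * (g ^ j)⁻¹ := by
    intro j
    induction j with
    | zero => intro y _; simp
    | succ j ih =>
      intro y hy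
      have h3 : (α ^ (j + 1)) y = (α ^ j) (α y) := by
        rw [pow_succ]
        rfl
      have h4 : ι (α y) ∈ R := by
        rw [hαS y hy]
        exact hg _ hy
      rw [h3, ih _ h4, hαS y hy, pow_succ]
      group
  obtain ⟨k, hk⟩ := hA α
  have hk' : α ^ 4 ^ k = 1 := by
    have : (4 : ℕ) ^ k = 2 ^ k * 2 ^ k := by
      rw [← mul_pow]
      norm_num
    rw [this, pow_mul, hk, one_pow]
  obtain ⟨q, hq⟩ : ∃ q, 4 ^ k = 3 * q + 1 := by
    refine ⟨4 ^ k / 3, ?_⟩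
    have h3 : 4 ^ k % 3 = 1 := by
      rw [Nat.pow_mod]
      norm_num
    omega
  obtain ⟨u, huR, hu⟩ := hne
  obtain ⟨y, rfl⟩ := hsurj u (hRT huR)
  apply hu
  have h3 := hiter (4 ^ k) y huR
  rw [hk'] at h3
  have h5 : (1 : MulAut S) y = y := rfl
  rw [h5] at h3
  have hcomm : ∀ n : ℕ, ∀ x ∈ R, (g ^ 3) ^ n * x = x * (g ^ 3) ^ n := by
    intro n
    induction n with
    | zero => intro x _; simp
    | succ n ih =>
      intro x hx
      rw [pow_succ, mul_assoc, hg3 x hx, ← mul_assoc, ih x hx, mul_assoc]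
  have h6 : g ^ 4 ^ k = (g ^ 3) ^ q * g := by
    rw [hq, pow_succ, pow_mul]
  rw [h6] at h3
  have h7 := hcomm q _ (hg _ huR)
  have h8 : (g ^ 3) ^ q * g * ι y * ((g ^ 3) ^ q * g)⁻¹ = g * ι y * g⁻¹ := by
    have h9 : (g ^ 3) ^ q * g * ι y * ((g ^ 3) ^ q * g)⁻¹ =
        (g ^ 3) ^ q * (g * ι y * g⁻¹) * ((g ^ 3) ^ q)⁻¹ := by
      group
    rw [h9, h7]
    group
  rw [h8] at h3
  exact h3.symm

end Cfsg.Agent.Lib.FusionRealSys
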