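/-
FusionSubnormalGrp: `F_S(G)` constrained implies `F_{S ∩ H}(H)` constrained for `H` subnormal (S5115).
-/
import Mathlib
import Cfsg.Agent.Lib.FusionConstrained
import Cfsg.Agent.Lib.FusionNormalSub
import Cfsg.Agent.Lib.FusionIso
import Cfsg.Agent.Lib.SylowNum

set_option autoImplicit false

namespace Cfsg.Agent.Lib.FusionSubnormalGrp

open Cfsg Cfsg.FusionSystem Cfsg.Agent.Lib.FusionCore
open Cfsg.Agent.Lib.FusionNormalSub (maps_group maps_sub isSaturated_of_sylow)
open Cfsg.Agent.Lib.FusionIso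

variable {G : Type*} [Group G] [Finite G] {p : ℕ} [Fact p.Prime]

lemma sylow_step {H K T : Subgroup G} (h_le : H ≤ K) (hN : (H.subgroupOf K).Normal) (R : Sylow p K)
    (hR : (R : Subgroup K) = T.subgroupOf K) : ∃ R' : Sylow p H, (R' : Subgroup H) = T.subgroupOf H := by
  haveI := hN
  obtain ⟨R₁, hR₁⟩ := Cfsg.Agent.Lib.SylowNum.exists_sylow_subgroupOf (H.subgroupOf K) R
  let ε : ↥(H.subgroupOf K) ≃* ↥H := Subgroup.subgroupOfEquivOfLe h_le
  refine ⟨Sylow.mapSurjective (f := ε.toMonoidHom) ε.surjective R₁, ?_⟩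
  ext x
  rw [Subgroup.mem_subgroupOf]
  show x ∈ ((R₁ : Subgroup _).map ε.toMonoidHom) ↔ _
  rw [Subgroup.mem_map]
  constructor
  · rintro ⟨y, hy, rfl⟩
    rw [hR₁, hR] at hy
    have h1 := Subgroup.mem_subgroupOf.1 (Subgroup.mem_subgroupOf.1 hy)
    exact h1
  · intro hx
    have hxK : (x : G) ∈ K := h_le x.2
    have hxH : (⟨x, hxK⟩ : K) ∈ H.subgroupOf K := Subgroup.mem_subgroupOf.2 x.2
    refine ⟨⟨⟨x, hxK⟩, hxH⟩, ?_, rfl⟩
    rw [hR₁, hR]
    exact Subgroup.mem_subgroupOf.2 (Subgroup.mem_subgroupOf.2 hx)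

/-- The induction along a subnormal chain. -/
theorem subnormal_constrained (S : Sylow p G) (hF : (groupFusionSystem (S : Subgroup G)).IsConstrained p)
    {H : Subgroup G} (hH : H.IsSubnormal) :
    (∃ R : Sylow p H, (R : Subgroup H) = ((S : Subgroup G) ⊓ H).subgroupOf H) ∧
      (fusionSystemOfSubgroup H ((S : Subgroup G) ⊓ H) inf_le_right).IsConstrained p := by
  induction hH with
  | top =>
    have hR : ∃ R : Sylow p (⊤ : Subgroup G), (R : Subgroup (⊤ : Subgroup G)) =
        ((S : Subgroup G) ⊓ ⊤).subgroupOf ⊤ := by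
      obtain ⟨R, hR⟩ := Cfsg.Agent.Lib.SylowNum.exists_sylow_subgroupOf (⊤ : Subgroup G) S
      refine ⟨R, ?_⟩
      rw [hR, inf_top_eq]
    refine ⟨hR, ?_⟩
    obtain ⟨R, hR⟩ := hR
    refine Cfsg.Agent.Lib.FusionConstrained.isConstrained_of_stronglyClosed S.isPGroup' hF
      (isSaturated_of_sylow inf_le_right R hR) ?_ ?_
    · rintro P φ ⟨h1, h2, g, -, h3⟩
      exact ⟨h1.trans inf_le_left, fun x => (h2 x).1, g, h3⟩
    · refine ⟨inf_le_left, fun P hP φ hφ x => ?_⟩
      exact ⟨(groupFusionSystem (S : Subgroup G)).le_of_mem hφ |>.2 x, Subgroup.mem_top _⟩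
  | step H K h_le _ hN ih =>
    obtain ⟨⟨R, hR⟩, hK⟩ := ih
    have hRK : (R : Subgroup K) = (S : Subgroup G).subgroupOf K := by
      rw [hR]
      ext x
      rw [Subgroup.mem_subgroupOf, Subgroup.mem_subgroupOf]
      exact ⟨fun h => h.1, fun h => ⟨h, x.2⟩⟩
    obtain ⟨R', hR'⟩ := sylow_step h_le hN R hRK
    have hR'' : (R' : Subgroup H) = ((S : Subgroup G) ⊓ H).subgroupOf H := by
      rw [hR']
      ext x
      rw [Subgroup.mem_subgroupOf, Subgroup.mem_subgroupOf]
      exact ⟨fun h => ⟨h, x.2⟩, fun h => h.1⟩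
    refine ⟨⟨R', hR''⟩, ?_⟩
    have hp : IsPGroup p ((S : Subgroup G) ⊓ K : Subgroup G) := S.isPGroup'.to_le inf_le_left
    refine Cfsg.Agent.Lib.FusionConstrained.isConstrained_of_stronglyClosed hp hK
      (isSaturated_of_sylow inf_le_right R' hR'') ?_ ?_
    · rintro P φ ⟨h1, h2, g, hg, h3⟩
      exact ⟨h1.trans (inf_le_inf_left _ h_le), fun x => inf_le_inf_left _ h_le (h2 x), g, h_le hg, h3⟩
    · refine ⟨inf_le_inf_left _ h_le, fun P hP φ hφ x => ?_⟩
      obtain ⟨-, h2, g, hg, h3⟩ := hφ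
      refine ⟨(h2 x).1, ?_⟩
      rw [h3]
      have hxH : ((x : P) : G) ∈ H := (hP x.2).2
      have := hN.conj_mem (⟨x, h_le hxH⟩ : K) (Subgroup.mem_subgroupOf.2 hxH) ⟨g, hg⟩
      exact Subgroup.mem_subgroupOf.1 this

/-- The partial inverse of the inclusion. -/
noncomputable def back (H : Subgroup G) (x : G) : H := by
  classical
  exact if h : x ∈ H then ⟨x, h⟩ else 1

lemma back_of_mem {H : Subgroup G} {x : G} (h : x ∈ H) : back H x = ⟨x, h⟩ := by
  unfold back
  rw [dif_pos h]

lemma coe_back {H : Subgroup G} {x : G} (h : x ∈ H) : ((back H x : H) : G) = x := by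
  rw [back_of_mem h]

lemma im_val (H : Subgroup G) (P : Subgroup H) : im (Subtype.val : H → G) P = P.map H.subtype := by
  have : (Subtype.val '' (P : Set H) : Set G) = ((P.map H.subtype : Subgroup G) : Set G) := by
    ext y
    simp
  rw [im, this, Subgroup.closure_eq]

lemma im_back (H : Subgroup G) {P : Subgroup G} (hP : P ≤ H) : im (back H) P = P.subgroupOf H := by
  have : (back H '' (P : Set G) : Set H) = ((P.subgroupOf H : Subgroup H) : Set H) := by
    ext y
    constructor
    · rintro ⟨x, hx, rfl⟩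
      rw [SetLike.mem_coe, back_of_mem (hP hx)]
      exact Subgroup.mem_subgroupOf.2 hx
    · intro hy
      have hy' : (y : G) ∈ P := Subgroup.mem_subgroupOf.1 hy
      exact ⟨y, hy', by rw [back_of_mem y.2]⟩
  rw [im, this, Subgroup.closure_eq]

/-- The isomorphism between the two forms of the fusion system of a subgroup. -/
noncomputable def isoSub (H T : Subgroup G) (hTH : T ≤ H) :
    Iso (groupFusionSystem (T.subgroupOf H)) (fusionSystemOfSubgroup H T hTH) where
  e := Subtype.val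
  e' := back H
  mem := fun x hx => Subgroup.mem_subgroupOf.1 hx
  mem' := fun y hy => by
    rw [back_of_mem (hTH hy)]
    exact Subgroup.mem_subgroupOf.2 hy
  map_mul := fun _ _ _ _ => rfl
  left := fun x _ => back_of_mem x.2
  right := fun y hy => coe_back (hTH hy)
  maps := by
    intro P f hf
    obtain ⟨h1, h2, g, h3⟩ := maps_group.1 hf
    rw [im_val]
    refine maps_sub.2 ⟨?_, ?_, g, g.2, ?_⟩
    · rintro _ ⟨x, hx, rfl⟩
      exact Subgroup.mem_subgroupOf.1 (h1 hx)
    · rintro _ ⟨x, hx, rfl⟩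
      have e : (Subtype.val ∘ f ∘ back H) (H.subtype x) = ((f x : H) : G) := by
        show (((f (back H x)) : H) : G) = _
        rw [back_of_mem x.2]
      rw [e]
      exact Subgroup.mem_subgroupOf.1 (h2 x hx)
    · rintro _ ⟨x, hx, rfl⟩
      show (((f (back H x)) : H) : G) = _
      rw [back_of_mem x.2]
      have := h3 x hx
      rw [this]
      rfl
  maps' := by
    intro P f hf
    obtain ⟨h1, h2, g, hg, h3⟩ := maps_sub.1 hf
    rw [im_back H (h1.trans hTH)]
    refine maps_group.2 ⟨?_, ?_, ⟨g, hg⟩, ?_⟩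
    · intro x hx
      exact Subgroup.mem_subgroupOf.2 (h1 (Subgroup.mem_subgroupOf.1 hx))
    · intro x hx
      have hx' : (x : G) ∈ P := Subgroup.mem_subgroupOf.1 hx
      show back H (f x) ∈ T.subgroupOf H
      rw [back_of_mem (hTH (h2 _ hx'))]
      exact Subgroup.mem_subgroupOf.2 (h2 _ hx')
    · intro x hx
      have hx' : (x : G) ∈ P := Subgroup.mem_subgroupOf.1 hx
      apply Subtype.ext
      show ((back H (f x) : H) : G) = g * x * g⁻¹
      rw [coe_back (hTH (h2 _ hx')), h3 _ hx']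

/-- Transport of constrainedness. -/
theorem isConstrained_group {H T : Subgroup G} (hTH : T ≤ H) (hp : IsPGroup p T)
    (h : (fusionSystemOfSubgroup H T hTH).IsConstrained p) : (groupFusionSystem (T.subgroupOf H)).IsConstrained p := by
  let I := isoSub H T hTH
  have hS : IsPGroup p (T.subgroupOf H) := hp.comap_of_injective H.subtype Subtype.coe_injective |>.to_le (by
    intro x hx
    exact Subgroup.mem_comap.2 (Subgroup.mem_subgroupOf.1 hx))
  obtain ⟨hs, Q', hn, hc⟩ := h
  have hQ'T : Q' ≤ T := hn.1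
  have hQ : im I.e' Q' ≤ T.subgroupOf H := I.symm.im_le hQ'T
  have e : im I.e (im I.e' Q') = Q' := I.im_symm' hQ'T
  refine ⟨I.isSaturated hS hs, im I.e' Q', I.isNormal hQ (by rw [e]; exact hn), I.isCentric hQ (by rw [e]; exact hc)⟩

/-- S5115, for all primes. -/
theorem main (S : Sylow p G) (hF : (groupFusionSystem (S : Subgroup G)).IsConstrained p) (H : Subgroup G) (hH : H.IsSubnormal) :
    (groupFusionSystem ((S : Subgroup G).subgroupOf H)).IsConstrained p := by
  have h1 := (subnormal_constrained S hF hH).2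
  have h2 := isConstrained_group inf_le_right (S.isPGroup'.to_le inf_le_left) h1
  have e : ((S : Subgroup G) ⊓ H).subgroupOf H = (S : Subgroup G).subgroupOf H := by
    ext x
    rw [Subgroup.mem_subgroupOf, Subgroup.mem_subgroupOf]
    exact ⟨fun h => h.1, fun h => ⟨h, x.2⟩⟩
  rwa [e] at h2

end Cfsg.Agent.Lib.FusionSubnormalGrp
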