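import Mathlib
import Cfsg.Agent.Lib.Tate
import Cfsg.Agent.Lib.NPCBasic
import Cfsg.Agent.Lib.FrobNPC
import Cfsg.Agent.Lib.PComplement

/-!
# A group form of Tate's theorem, relative to a normal subgroup in the Frattini subgroup
-/

set_option autoImplicit false

namespace Cfsg.Agent.Lib.FusionTateQ

open Cfsg

universe u

/-- If `R ≤ Φ(T)` is normal in `G` and `G` fuses modulo `R` nothing in `T`, then `G` has a normal `p`-complement. -/
theorem hasNPC_of_frattini {G : Type u} [Group G] [Finite G] {p : ℕ} [hp : Fact p.Prime] (T : Sylow p G)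
    (R : Subgroup G) [hR : R.Normal] (hRT : R ≤ (T : Subgroup G))
    (hΦ : R ≤ (frattini (T : Subgroup G)).map (T : Subgroup G).subtype)
    (hfus : ∀ x ∈ (T : Subgroup G), ∀ g : G, g * x * g⁻¹ ∈ (T : Subgroup G) → x⁻¹ * (g * x * g⁻¹) ∈ R) :
    HasNormalPComplement p G := by
  classical
  let π : G →* G ⧸ R := QuotientGroup.mk' R
  have hπ : Function.Surjective π := QuotientGroup.mk'_surjective R
  have hker : ∀ x, π x = 1 ↔ x ∈ R := fun x => QuotientGroup.eq_one_iff x
  let T' : Sylow p (G ⧸ R) := T.mapSurjective hπ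
  have hT' : (T' : Subgroup (G ⧸ R)) = (T : Subgroup G).map π := Sylow.coe_mapSurjective hπ T
  -- preimages of `T'` lie in `T`
  have hpre : ∀ x, π x ∈ (T' : Subgroup (G ⧸ R)) → x ∈ (T : Subgroup G) := by
    intro x hx
    rw [hT'] at hx
    obtain ⟨t, ht, e⟩ := hx
    have h1 : t⁻¹ * x ∈ R := by
      rw [← hker, _root_.map_mul, _root_.map_inv, e, inv_mul_cancel]
    have h2 := (T : Subgroup G).mul_mem ht (hRT h1)
    simpa using h2
  obtain ⟨N', hN', hc⟩ := (Cfsg.Agent.Lib.PComplement.frobenius_criterion T').2 (by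
    intro Q hQ g hg _
    rw [Subgroup.mem_centralizer_iff]
    intro y hy
    obtain ⟨g₀, rfl⟩ := hπ g
    obtain ⟨x, rfl⟩ := hπ y
    have hxT := hpre x (hQ hy)
    have h1 : π g₀ * π x * (π g₀)⁻¹ ∈ Q := (Subgroup.mem_normalizer_iff.1 hg _).1 hy
    have h2 : g₀ * x * g₀⁻¹ ∈ (T : Subgroup G) := by
      apply hpre
      simpa using hQ h1
    have h3 := (hker _).2 (hfus x hxT g₀ h2)
    rw [_root_.map_mul, _root_.map_inv, _root_.map_mul, _root_.map_mul, _root_.map_inv] at h3
    have h4 : π g₀ * π x * (π g₀)⁻¹ = π x := by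
      rw [mul_eq_one_iff_eq_inv] at h3
      exact (inv_injective h3).symm
    calc π x * π g₀ = (π g₀ * π x * (π g₀)⁻¹) * π g₀ := by rw [h4]
      _ = π g₀ * π x := by group)
  let K : Subgroup G := N'.comap π
  haveI hKn : K.Normal := Subgroup.Normal.comap hN' π
  have hKT : K ⊓ (T : Subgroup G) ≤ R := by
    rintro x ⟨hx1, hx2⟩
    have h1 : π x ∈ N' := hx1
    have h2 : π x ∈ (T' : Subgroup (G ⧸ R)) := by
      rw [hT']
      exact ⟨x, hx2, rfl⟩
    have := Subgroup.disjoint_def.1 hc.disjoint h1 h2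
    exact (hker x).1 this
  haveI := hKn
  have hNPC := Cfsg.Agent.Lib.Tate.tate T K (hKT.trans hΦ)
  rw [Cfsg.Agent.Lib.NPCBasic.hasNPC_iff] at hNPC
  obtain ⟨N, hNn, hNc, k, hk⟩ := hNPC
  rw [Cfsg.Agent.Lib.NPCBasic.hasNPC_iff]
  -- the index of `K`
  obtain ⟨l, hl⟩ : ∃ l, K.index = p ^ l := by
    have h1 : K.index = N'.index := Subgroup.index_comap_of_surjective N' hπ
    have h2 := hc.card_mul_card
    have h3 := Subgroup.card_mul_index N'
    have hidx : N'.index = Nat.card (T' : Subgroup (G ⧸ R)) := by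
      have hpos : 0 < Nat.card N' := Nat.card_pos
      exact Nat.eq_of_mul_eq_mul_left hpos (h3.trans h2.symm)
    obtain ⟨l, hl⟩ := IsPGroup.iff_card.mp T'.isPGroup'
    exact ⟨l, by rw [h1, hidx, hl]⟩
  refine ⟨N.map K.subtype, ?_, ?_, k + l, ?_⟩
  · -- characteristic
    constructor
    rintro _ ⟨n, hn, rfl⟩ g
    have hmem : g * (n : G) * g⁻¹ ∈ K := hKn.conj_mem _ n.2 g
    refine ⟨⟨_, hmem⟩, ?_, rfl⟩
    haveI := hNn
    have hord : (orderOf (⟨_, hmem⟩ : K)).Coprime p := by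
      have e1 : orderOf (⟨_, hmem⟩ : K) = orderOf (g * (n : G) * g⁻¹) := Subgroup.orderOf_mk _ _
      have e2 : orderOf (g * (n : G) * g⁻¹) = orderOf (n : G) := by
        have : g * (n : G) * g⁻¹ = MulAut.conj g (n : G) := rfl
        rw [this]
        exact MulEquiv.orderOf_eq _ _
      have e3 : orderOf (n : G) = orderOf n := Subgroup.orderOf_coe n
      have e4 : orderOf n = orderOf (⟨n, hn⟩ : N) := (Subgroup.orderOf_mk _ _).symm
      rw [e1, e2, e3, e4]
      exact Nat.Coprime.coprime_dvd_left (orderOf_dvd_natCard _) hNc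
    exact Cfsg.Agent.Lib.FrobNPC.mem_of_coprime_of_index hk hord
  · have e : Nat.card (N.map K.subtype) = Nat.card N :=
      (Nat.card_congr (N.equivMapOfInjective _ K.subtype_injective).toEquiv).symm
    rw [e]; exact hNc
  · rw [Subgroup.index_map_subtype, hk, hl, pow_add]

end Cfsg.Agent.Lib.FusionTateQ
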