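import Mathlib

/-!
# Pairs of transvections in an elementary abelian group

Two "transvections" `t`, `t₁` of an elementary abelian `p`-group with distinct centers `z`, `z'`, neither fixing the
center of the other, generate a group containing an element `β` inverting both centers and commuting with `t`.
Also a Sylow conjugation lemma inside an intermediate subgroup.
-/

set_option autoImplicit false

namespace Cfsg.Agent.Lib.FusionTransvPair

variable {p : ℕ} [hp : Fact p.Prime]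

section Beta

variable {V : Type*} [CommGroup V]

theorem mem_zpowers_of_prime {a b : V} (hb : b ^ p = 1) (h1 : a ≠ 1) (hab : a ∈ Subgroup.zpowers b) :
    b ∈ Subgroup.zpowers a := by
  have hpp := hp.out
  obtain ⟨i, rfl⟩ := Subgroup.mem_zpowers_iff.mp hab
  have hcop : Nat.Coprime i.natAbs p := by
    by_contra hnc
    have h2 : p ∣ i.natAbs := by
      rw [Nat.coprime_comm, Nat.Prime.coprime_iff_not_dvd hpp] at hnc
      exact not_not.mp hnc
    have h3 : (p : ℤ) ∣ i := Int.natCast_dvd.mpr h2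
    obtain ⟨j, rfl⟩ := h3
    apply h1
    rw [zpow_mul, zpow_natCast, hb, one_zpow]
  have h4 : Int.gcd i (p : ℤ) = 1 := by
    rw [Int.gcd_eq_natAbs]
    simpa using hcop
  have h5 := Int.gcd_eq_gcd_ab i (p : ℤ)
  rw [h4] at h5
  refine Subgroup.mem_zpowers_iff.mpr ⟨Int.gcdA i p, ?_⟩
  rw [← zpow_mul]
  have h6 : i * Int.gcdA i p = 1 - p * Int.gcdB i p := by
    push_cast at h5
    linarith
  rw [h6, zpow_sub, zpow_one, zpow_mul, zpow_natCast, hb, one_zpow, inv_one, mul_one]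

theorem exists_npow_of_mem_zpowers {a b : V} (hb : b ^ p = 1) (hab : a ∈ Subgroup.zpowers b) : ∃ n : ℕ, b ^ n = a := by
  obtain ⟨i, rfl⟩ := Subgroup.mem_zpowers_iff.mp hab
  refine ⟨(i % p).toNat, ?_⟩
  have hp0 : (p : ℤ) ≠ 0 := by exact_mod_cast hp.out.ne_zero
  have h1 : (((i % p).toNat : ℕ) : ℤ) = i % p := Int.toNat_of_nonneg (Int.emod_nonneg _ hp0)
  rw [← zpow_natCast, h1]
  conv_rhs => rw [← Int.emod_add_mul_ediv i p, zpow_add, zpow_mul, zpow_natCast b p, hb, one_zpow, mul_one]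

/-- The word in two transvections. -/
theorem exists_beta [Finite V] (hexp : ∀ x : V, x ^ p = 1) (t t₁ : MulAut V) (z z' : V)
    (h1 : ∀ v, t v * v⁻¹ ∈ Subgroup.zpowers z) (h2 : ∀ v, t₁ v * v⁻¹ ∈ Subgroup.zpowers z')
    (h3 : t z = z) (h4 : t₁ z' = z') (h5 : t z' ≠ z') (h6 : t₁ z ≠ z) (D : Subgroup (MulAut V))
    (ht : t ∈ D) (ht₁ : t₁ ∈ D) : ∃ β ∈ D, β z = z⁻¹ ∧ β * t = t * β := by
  classical
  obtain ⟨c, hc⟩ : ∃ c, c = t z' * z'⁻¹ := ⟨_, rfl⟩
  obtain ⟨r, hr⟩ : ∃ r, r = t₁ z * z⁻¹ := ⟨_, rfl⟩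
  have hc1 : c ≠ 1 := fun h => h5 (mul_inv_eq_one.mp (hc ▸ h))
  have hr1 : r ≠ 1 := fun h => h6 (mul_inv_eq_one.mp (hr ▸ h))
  have hcz : c ∈ Subgroup.zpowers z := hc ▸ h1 z'
  have hrz : r ∈ Subgroup.zpowers z' := hr ▸ h2 z
  have hzc : z ∈ Subgroup.zpowers c := mem_zpowers_of_prime (hexp z) hc1 hcz
  have hzr : z' ∈ Subgroup.zpowers r := mem_zpowers_of_prime (hexp z') hr1 hrz
  have htz : z' * c = t z' := by rw [hc, mul_comm, inv_mul_cancel_right]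
  have htr : z * r = t₁ z := by rw [hr, mul_comm, inv_mul_cancel_right]
  -- fixed elements
  have hfixt : ∀ x ∈ Subgroup.zpowers z, t x = x := by
    intro x hx
    obtain ⟨i, rfl⟩ := Subgroup.mem_zpowers_iff.mp hx
    rw [map_zpow, h3]
  have hfixt₁ : ∀ x ∈ Subgroup.zpowers z', t₁ x = x := by
    intro x hx
    obtain ⟨i, rfl⟩ := Subgroup.mem_zpowers_iff.mp hx
    rw [map_zpow, h4]
  have htc : t c = c := hfixt c hcz
  have htr' : t₁ r = r := hfixt₁ r hrz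
  -- iterates
  have hpowt : ∀ k : ℕ, (t ^ k) z' = z' * c ^ k := by
    intro k
    induction k with
    | zero => simp
    | succ k ih =>
      rw [pow_succ', MulAut.mul_apply, ih, map_mul, map_pow, htc, ← htz, pow_succ]
      simp only [mul_comm, mul_assoc]
  have hpowt₁ : ∀ k : ℕ, (t₁ ^ k) z = z * r ^ k := by
    intro k
    induction k with
    | zero => simp
    | succ k ih =>
      rw [pow_succ', MulAut.mul_apply, ih, map_mul, map_pow, htr', ← htr, pow_succ]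
      simp only [mul_comm, mul_assoc]
  have hfixpow : ∀ (s : MulAut V) (x : V), s x = x → ∀ k : ℕ, (s ^ k) x = x := by
    intro s x hs k
    induction k with
    | zero => simp
    | succ k ih => rw [pow_succ', MulAut.mul_apply, ih, hs]
  obtain ⟨m, hm⟩ := exists_npow_of_mem_zpowers (hexp c) hzc
  obtain ⟨l, hl⟩ : ∃ l : ℕ, r ^ l = z'⁻¹ := exists_npow_of_mem_zpowers (hexp r)
    ((Subgroup.zpowers r).inv_mem hzr)
  obtain ⟨T, hT⟩ : ∃ T, T = t ^ m := ⟨_, rfl⟩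
  obtain ⟨T₁, hT₁⟩ : ∃ T₁, T₁ = t₁ ^ l := ⟨_, rfl⟩
  have hTz : T z = z := hT ▸ hfixpow t z h3 m
  have hTz' : T z' = z' * z := by rw [hT, hpowt, hm]
  have hT₁z' : T₁ z' = z' := hT₁ ▸ hfixpow t₁ z' h4 l
  have hT₁z : T₁ z = z * z'⁻¹ := by rw [hT₁, hpowt₁, hl]
  obtain ⟨w, hw⟩ : ∃ w, w = T * T₁ * T := ⟨_, rfl⟩
  have hwz : w z = z'⁻¹ := by
    rw [hw, MulAut.mul_apply, MulAut.mul_apply, hTz, hT₁z, map_mul, map_inv, hTz, hTz', mul_inv, mul_comm z'⁻¹, mul_inv_cancel_left]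
  have hwz' : w z' = z := by
    rw [hw, MulAut.mul_apply, MulAut.mul_apply, hTz', map_mul, hT₁z', hT₁z, mul_comm z', inv_mul_cancel_right, hTz]
  obtain ⟨β, hβ⟩ : ∃ β, β = w * w := ⟨_, rfl⟩
  have hβz : β z = z⁻¹ := by
    rw [hβ, MulAut.mul_apply, hwz, map_inv, hwz']
  have hβz' : β z' = z'⁻¹ := by
    rw [hβ, MulAut.mul_apply, hwz', hwz]
  have hβmem : β ∈ D := by
    have h7 : T ∈ D := hT ▸ D.pow_mem ht m
    have h8 : T₁ ∈ D := hT₁ ▸ D.pow_mem ht₁ l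
    have h9 : w ∈ D := hw ▸ D.mul_mem (D.mul_mem h7 h8) h7
    exact hβ ▸ D.mul_mem h9 h9
  have hβfix : ∀ k, t k = k → t₁ k = k → β k = k := by
    intro k h7 h8
    have h9 : T k = k := hT ▸ hfixpow t k h7 m
    have h10 : T₁ k = k := hT₁ ▸ hfixpow t₁ k h8 l
    have h11 : w k = k := by
      rw [hw, MulAut.mul_apply, MulAut.mul_apply, h9, h10, h9]
    rw [hβ, MulAut.mul_apply, h11, h11]
  -- the decomposition
  have hdec : ∀ v, ∃ (b d : ℕ) (k : V), t k = k ∧ t₁ k = k ∧ v = z ^ b * z' ^ d * k := by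
    intro v
    have hτ : t v * v⁻¹ ∈ Subgroup.zpowers c := by
      have := h1 v
      exact (Subgroup.zpowers_le.mpr hzc) this
    obtain ⟨d, hd⟩ := exists_npow_of_mem_zpowers (hexp c) hτ
    obtain ⟨v₁, hv₁⟩ : ∃ v₁, v₁ = v * (z' ^ d)⁻¹ := ⟨_, rfl⟩
    have htv₁ : t v₁ = v₁ := by
      have h7 : t v = c ^ d * v := by
        rw [hd, inv_mul_cancel_right]
      rw [hv₁, map_mul, map_inv, map_pow, h7, ← htz, mul_pow, mul_inv, mul_comm (z' ^ d)⁻¹, mul_comm (c ^ d) v,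
        mul_assoc, mul_inv_cancel_left]
    have hρ : t₁ v₁ * v₁⁻¹ ∈ Subgroup.zpowers r := by
      have := h2 v₁
      exact (Subgroup.zpowers_le.mpr hzr) this
    obtain ⟨b, hb⟩ := exists_npow_of_mem_zpowers (hexp r) hρ
    obtain ⟨k, hk⟩ : ∃ k, k = v₁ * (z ^ b)⁻¹ := ⟨_, rfl⟩
    have ht₁k : t₁ k = k := by
      have h7 : t₁ v₁ = r ^ b * v₁ := by
        rw [hb, inv_mul_cancel_right]
      rw [hk, map_mul, map_inv, map_pow, h7, ← htr, mul_pow, mul_inv, mul_comm (z ^ b)⁻¹, mul_comm (r ^ b) v₁,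
        mul_assoc, mul_inv_cancel_left]
    have htk : t k = k := by
      rw [hk, map_mul, map_inv, map_pow, htv₁, h3]
    refine ⟨b, d, k, htk, ht₁k, ?_⟩
    rw [hk, hv₁, mul_assoc v, ← mul_inv_rev, mul_comm v, ← mul_assoc (z ^ b * z' ^ d), mul_inv_cancel, one_mul]
  have hcinv : β c = c⁻¹ := by
    obtain ⟨i, hi⟩ := Subgroup.mem_zpowers_iff.mp hcz
    rw [← hi, map_zpow, hβz, inv_zpow]
  refine ⟨β, hβmem, hβz, ?_⟩
  ext v
  obtain ⟨b, d, k, hk1, hk2, rfl⟩ := hdec v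
  have e1 : t (z ^ b * z' ^ d * k) = z ^ b * (z' * c) ^ d * k := by
    rw [map_mul, map_mul, map_pow, map_pow, h3, hk1, ← htz]
  have e2 : β (z ^ b * (z' * c) ^ d * k) = (z⁻¹) ^ b * (z'⁻¹ * c⁻¹) ^ d * k := by
    rw [map_mul, map_mul, map_pow, map_pow, hβz, map_mul, hβz', hcinv, hβfix k hk1 hk2]
  have e3 : β (z ^ b * z' ^ d * k) = (z⁻¹) ^ b * (z'⁻¹) ^ d * k := by
    rw [map_mul, map_mul, map_pow, map_pow, hβz, hβz', hβfix k hk1 hk2]
  have e4 : t ((z⁻¹) ^ b * (z'⁻¹) ^ d * k) = (z⁻¹) ^ b * ((z' * c)⁻¹) ^ d * k := by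
    rw [map_mul, map_mul, map_pow, map_pow, map_inv, map_inv, h3, hk1, ← htz]
  rw [MulAut.mul_apply, MulAut.mul_apply, e1, e2, e3, e4, mul_inv]

end Beta

section SylowSub

variable {G : Type*} [Group G] [Finite G]

/-- A `p`-element of an intermediate subgroup `H`, `T ≤ H ≤ A`, `T` a `p`-subgroup of `p'`-index in `A`, is conjugate in
`H` into `T`. -/
theorem exists_conj_mem {T H A : Subgroup G} (hTH : T ≤ H) (hHA : H ≤ A) (hTp : IsPGroup p T)
    (hidx : ¬ p ∣ (T.subgroupOf A).index) {x : G} (hx : x ∈ H) {k : ℕ} (hxk : x ^ (p ^ k) = 1) :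
    ∃ δ ∈ H, δ * x * δ⁻¹ ∈ T := by
  classical
  have hidxH : ¬ p ∣ (T.subgroupOf H).index := by
    intro h
    apply hidx
    have h1 : T.relIndex H ∣ T.relIndex A := Dvd.intro _ (Subgroup.relIndex_mul_relIndex T H A hTH hHA)
    exact h.trans h1
  have hT' : IsPGroup p (T.subgroupOf H) := hTp.comap_subtype
  let R : Sylow p H := hT'.toSylow hidxH
  have hxH : IsPGroup p (Subgroup.zpowers (⟨x, hx⟩ : H)) := by
    rintro ⟨g, hg⟩
    obtain ⟨i, rfl⟩ := Subgroup.mem_zpowers_iff.mp hg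
    refine ⟨k, Subtype.ext (Subtype.ext ?_)⟩
    show (x ^ i) ^ (p ^ k) = 1
    rw [← zpow_natCast, ← zpow_mul, mul_comm, zpow_mul, zpow_natCast, hxk, one_zpow]
  obtain ⟨W, hW⟩ := hxH.exists_le_sylow
  obtain ⟨γ, hγ⟩ := MulAction.exists_smul_eq H W R
  refine ⟨γ, γ.2, ?_⟩
  have h1 : (⟨x, hx⟩ : H) ∈ (W : Subgroup H) := hW (Subgroup.mem_zpowers _)
  have h2 : γ * (⟨x, hx⟩ : H) * γ⁻¹ ∈ (R : Subgroup H) := by
    rw [← hγ]
    exact Subgroup.mem_map_of_mem _ h1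
  exact Subgroup.mem_subgroupOf.mp h2

end SylowSub

end Cfsg.Agent.Lib.FusionTransvPair
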