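import Cfsg.Agent.Lib.G24Act
import Cfsg.Agent.Lib.PrimeGraphExt

/-!
# Groups with the prime graph of `G₂(4)`
-/

set_option autoImplicit false
set_option linter.unusedSectionVars false

namespace Cfsg.Agent.Lib.G24

open Cfsg Cfsg.Lie Matrix Module
open Cfsg.Agent.Lib.F4K Cfsg.Agent.Lib.G24Data Cfsg.Agent.Lib.ZornAlg Cfsg.Agent.Lib.G24Rel
open Cfsg.Agent.Lib.G24Act Cfsg.Agent.Lib.PrimeGraphExt
open scoped MatrixGroups

/-- Indices of roots. -/
abbrev rt (n : ℕ) (h : n < 12 := by norm_num) : Fin chevG2.nroots := ⟨n, h⟩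

lemma x_sq6 : chevG2.xMat K4 (rt 6) (c4 1) * chevG2.xMat K4 (rt 6) (c4 1) = 1 := by decide +kernel
lemma x_sq6' : chevG2.xMat K4 (rt 6) (c4 2) * chevG2.xMat K4 (rt 6) (c4 2) = 1 := by decide +kernel
lemma x_sq5 : chevG2.xMat K4 (rt 5) (c4 1) * chevG2.xMat K4 (rt 5) (c4 1) = 1 := by decide +kernel
lemma x_sq9 : chevG2.xMat K4 (rt 9) (c4 1) * chevG2.xMat K4 (rt 9) (c4 1) = 1 := by decide +kernel

/-- The root element in the group. -/
def gen (r : Fin chevG2.nroots) (t : K4) (h : chevG2.xMat K4 r t * chevG2.xMat K4 r t = 1) : Lg :=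
  ⟨⟨chevG2.xMat K4 r t, chevG2.xMat K4 r t, h, h⟩, Subgroup.subset_closure ⟨r, t, rfl⟩⟩

lemma phi_genE (r : Fin chevG2.nroots) (t : K4) (h : chevG2.xMat K4 r t * chevG2.xMat K4 r t = 1) :
    phi (gen r t h) = yU r t := phi_gen r t _ rfl

/-- An element of order `6`. -/
def g6 : Lg := gen (rt 6) (c4 1) x_sq6 * gen (rt 5) (c4 1) x_sq5 * gen (rt 9) (c4 1) x_sq9

/-- An element of order `10`. -/
def g10 : Lg := gen (rt 6) (c4 2) x_sq6' * gen (rt 5) (c4 1) x_sq5 * gen (rt 9) (c4 1) x_sq9

/-- The matrix of `g6`. -/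
def m6 : M8 := yM 6 (c4 1) * yM 5 (c4 1) * yM 9 (c4 1)

/-- The matrix of `g10`. -/
def m10 : M8 := yM 6 (c4 2) * yM 5 (c4 1) * yM 9 (c4 1)

lemma m6_pow : m6 ^ 6 = 1 := by decide +kernel
lemma m6_ne2 : m6 ^ 2 ≠ 1 := by decide +kernel
lemma m6_ne3 : m6 ^ 3 ≠ 1 := by decide +kernel
lemma m10_pow : m10 ^ 10 = 1 := by decide +kernel
lemma m10_ne2 : m10 ^ 2 ≠ 1 := by decide +kernel
lemma m10_ne5 : m10 ^ 5 ≠ 1 := by decide +kernel

lemma order_of_phi (g : Lg) : orderOf g = orderOf ((phi g : GL (Fin 8) K4) : M8) := by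
  rw [orderOf_units, orderOf_injective phi phi_injective]

lemma order_g6 : orderOf g6 = 6 := by
  rw [order_of_phi]
  have h : ((phi g6 : GL (Fin 8) K4) : M8) = m6 := by
    simp only [g6, map_mul, phi_genE]
    rfl
  rw [h]
  refine orderOf_eq_of_pow_and_pow_div_prime (by norm_num) m6_pow ?_
  intro p hp hpd
  have h6 : (6 : ℕ) = 2 * 3 := by norm_num
  rw [h6, hp.dvd_mul] at hpd
  rcases hpd with h | h
  · have := (Nat.prime_dvd_prime_iff_eq hp (by norm_num)).1 h
    subst this
    exact m6_ne3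
  · have := (Nat.prime_dvd_prime_iff_eq hp (by norm_num)).1 h
    subst this
    exact m6_ne2

lemma order_g10 : orderOf g10 = 10 := by
  rw [order_of_phi]
  have h : ((phi g10 : GL (Fin 8) K4) : M8) = m10 := by
    simp only [g10, map_mul, phi_genE]
    rfl
  rw [h]
  refine orderOf_eq_of_pow_and_pow_div_prime (by norm_num) m10_pow ?_
  intro p hp hpd
  have h6 : (10 : ℕ) = 2 * 5 := by norm_num
  rw [h6, hp.dvd_mul] at hpd
  rcases hpd with h | h
  · have := (Nat.prime_dvd_prime_iff_eq hp (by norm_num)).1 h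
    subst this
    exact m10_ne5
  · have := (Nat.prime_dvd_prime_iff_eq hp (by norm_num)).1 h
    subst this
    exact m10_ne2

instance : Finite Lg := inferInstance

/-- The main theorem over the concrete field. -/
theorem exists_large (N : ℕ) :
    ∃ (H : Type) (_ : Group H) (_ : Fintype H), N < Fintype.card H ∧ SameGraph Lg H := by
  refine exists_large_sameGraph rhoHom Nat.prime_two ?_ ?_ ?_ N
  · have h : 6 ∣ Nat.card Lg := order_g6 ▸ orderOf_dvd_natCard g6
    exact dvd_trans (by norm_num) h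
  · intro v
    apply Multiplicative.toAdd.injective
    funext i
    rw [pow_two]
    show (Multiplicative.toAdd v) i + (Multiplicative.toAdd v) i = 0
    exact K4_add_self _
  · intro s hs hs2 g hg v hv hgv
    have hy := (phi_rel g).1
    have hpow : ((phi g : GL (Fin 8) K4) : M8) ^ s = 1 := by
      rw [← Units.val_pow_eq_pow_val, ← map_pow, ← hg, pow_orderOf_eq_one, map_one, Units.val_one]
    have hne : ((phi g : GL (Fin 8) K4) : M8) ≠ 1 := by
      intro h
      have h1 : phi g = 1 := Units.ext h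
      have h2 : g = 1 := phi_injective (by rw [h1, map_one])
      rw [h2, orderOf_one] at hg
      exact hs.one_lt.ne hg
    set v' : V6 := Multiplicative.toAdd v with hv'
    have hv0 : v' ≠ 0 := by
      intro h
      apply hv
      exact Multiplicative.toAdd.injective h
    have hfx : rho (phi g) v' = v' := by
      have : Multiplicative.toAdd (rhoHom g v) = Multiplicative.toAdd v := by rw [hgv]
      exact this
    have hlift := fixed_lift hy hfx
    rcases fix_prime hy hs hs2 hpow hne (lift_sq v') (tr_lift v') (lift_ne_zero hv0) hlift with h | h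
    · subst h
      exact ⟨g6, order_g6⟩
    · subst h
      exact ⟨g10, order_g10⟩

end Cfsg.Agent.Lib.G24
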