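import Mathlib

/-!
# Finite computations in `GL(2,3)`
-/

set_option autoImplicit false
set_option maxRecDepth 100000
set_option maxHeartbeats 4000000

namespace Cfsg.Agent.Lib.GL23Dec

/-- The group. -/
abbrev GL23 := Matrix.GeneralLinearGroup (Fin 2) (ZMod 3)

/-- An element of order eight. -/
def s : GL23 := ⟨!![0, 1; 1, 1], !![2, 1; 1, 0], by decide, by decide⟩

/-- An element of order six. -/
def w : GL23 := ⟨!![0, 1; 2, 1], !![1, 2; 1, 0], by decide, by decide⟩

theorem center : ∀ x : GL23, (∀ y : GL23, x * y = y * x) → x ≠ 1 → x = -1 := by decide +kernel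

theorem noncomm : ∃ x y : GL23, x * y ≠ y * x := by decide +kernel

theorem neg_one_sq : (-1 : GL23) ^ 2 = 1 := by decide +kernel

theorem neg_one_ne : (-1 : GL23) ≠ 1 := by decide +kernel

theorem s_four : s ^ 4 = -1 := by decide +kernel

theorem w_three : w ^ 3 = -1 := by decide +kernel

theorem conj_s : ∃ g : GL23, g * s * g⁻¹ = s ^ 3 := by decide +kernel

theorem conj_w : ∃ g : GL23, g * w * g⁻¹ = w⁻¹ := by decide +kernel

theorem not_conj_s : ∀ g : GL23, g * s * g⁻¹ ≠ s ^ 5 := by decide +kernel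

theorem card_all : Fintype.card GL23 = 48 := by decide +kernel

theorem card_s : Fintype.card {x : GL23 // x * s = s * x} = 8 := by decide +kernel

theorem card_s2 : Fintype.card {x : GL23 // x * s ^ 2 = s ^ 2 * x} = 8 := by decide +kernel

theorem card_w : Fintype.card {x : GL23 // x * w = w * x} = 6 := by decide +kernel

theorem card_PP_s2 : Fintype.card {x : GL23 //
    (x ^ 2 = 1 ∧ x ≠ 1) ∧ ((x⁻¹ * s ^ 2) ^ 2 = 1 ∧ x⁻¹ * s ^ 2 ≠ 1)} = 4 := by decide +kernel

theorem card_PP_s : Fintype.card {x : GL23 //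
    (x ^ 2 = 1 ∧ x ≠ 1) ∧ ((x⁻¹ * s) ^ 2 = 1 ∧ x⁻¹ * s ≠ 1)} = 0 := by decide +kernel

theorem powers_s : ∀ k : Fin 8, (s ^ k.val) ^ 2 = 1 → s ^ k.val ≠ 1 → s ^ k.val = -1 := by decide +kernel

/-- The Sylow `2`-subgroup: the normalizer of `⟨s⟩`. -/
def inS (x : GL23) : Prop := x * s * x⁻¹ = s ∨ x * s * x⁻¹ = s ^ 3

instance : DecidablePred inS := fun x => by unfold inS; infer_instance

theorem inS_one : inS 1 := by decide +kernel

theorem inS_mul : ∀ x y : GL23, inS x → inS y → inS (x * y) := by decide +kernel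

theorem inS_inv : ∀ x : GL23, inS x → inS x⁻¹ := by decide +kernel

theorem inS_neg_one : inS (-1) := by decide +kernel

theorem card_inS : Fintype.card {x : GL23 // inS x} = 16 := by decide +kernel

theorem inS_center : ∀ x : GL23, inS x → (∀ y : GL23, inS y → x * y = y * x) → x ≠ 1 → x = -1 := by
  decide +kernel

theorem inS_norm : ∀ x : GL23, (∀ y : GL23, inS y → inS (x * y * x⁻¹)) → inS x := by decide +kernel

end Cfsg.Agent.Lib.GL23Dec
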