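import Mathlib
import Cfsg.Agent.Lib.GL23Dec
import Cfsg.Agent.Lib.D8CentGroup

/-!
# Groups with an involution whose centralizer is `GL(2,3)`: the group theory
-/

set_option autoImplicit false
set_option linter.unusedVariables false
set_option linter.unusedSectionVars false

namespace Cfsg.Agent.Lib.GL23Group

open Subgroup Cfsg.Agent.Lib.GL23Dec
open scoped commutatorElement
open Cfsg.Agent.Lib.D8CentGroup (PP PP_invert exists_conj_mem)

section

variable {G : Type*} [Group G] [Finite G] {t : G} (e : centralizer ({t} : Set G) ≃* GL23)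

/-- The inverse of the isomorphism as a map into the whole group. -/
def inG (x : GL23) : G := ((e.symm x : centralizer ({t} : Set G)) : G)

@[simp] theorem inG_mul (x y : GL23) : inG e (x * y) = inG e x * inG e y := by
  simp [inG]

@[simp] theorem inG_one : inG e 1 = 1 := by simp [inG]

@[simp] theorem inG_inv (x : GL23) : inG e x⁻¹ = (inG e x)⁻¹ := by simp [inG]

@[simp] theorem inG_pow (x : GL23) (n : ℕ) : inG e (x ^ n) = (inG e x) ^ n := by simp [inG]

theorem inG_inj {x y : GL23} (h : inG e x = inG e y) : x = y := by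
  have := Subtype.ext h
  exact e.symm.injective this

theorem inG_eq_iff {x y : GL23} : inG e x = inG e y ↔ x = y :=
  ⟨inG_inj e, fun h => by rw [h]⟩

theorem inG_eq_one_iff {x : GL23} : inG e x = 1 ↔ x = 1 := by
  rw [← inG_one e, inG_eq_iff]

theorem inG_mem (x : GL23) : inG e x ∈ centralizer ({t} : Set G) := (e.symm x).2

theorem inG_comm (x : GL23) : inG e x * t = t * inG e x := by
  have := inG_mem e x
  rw [mem_centralizer_singleton_iff] at this
  exact this

theorem exists_inG {g : G} (hg : g ∈ centralizer ({t} : Set G)) : ∃ x, g = inG e x :=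
  ⟨e ⟨g, hg⟩, by simp [inG]⟩

theorem mem_tS : t ∈ centralizer ({t} : Set G) := by
  rw [mem_centralizer_singleton_iff]

omit e in
theorem t_ne_one (ht : orderOf t = 2) : t ≠ 1 := by
  rintro rfl
  simp at ht

omit e in
theorem t_sq (ht : orderOf t = 2) : t ^ 2 = 1 := by
  rw [← ht]; exact pow_orderOf_eq_one t

omit e in
theorem t_inv (ht : orderOf t = 2) : t⁻¹ = t := by
  rw [eq_comm, ← mul_eq_one_iff_eq_inv, ← pow_two, t_sq ht]

variable (ht : orderOf t = 2)
include ht

/-- `t` corresponds to the central involution. -/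
theorem inG_neg_one : inG e (-1) = t := by
  obtain ⟨x, hx⟩ := exists_inG e (mem_tS (t := t))
  have hc : ∀ y : GL23, x * y = y * x := by
    intro y
    apply inG_inj e
    rw [inG_mul, inG_mul, ← hx]
    exact (inG_comm e y).symm
  have hne : x ≠ 1 := by
    rintro rfl
    rw [inG_one] at hx
    exact t_ne_one ht hx
  rw [center x hc hne] at hx
  exact hx.symm

/-- Elements of the centralizer of an element having `t` as a power. -/
theorem mem_of_comm_pow {x g : G} {k : ℕ} (hk : x ^ k = t) (hg : g * x = x * g) :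
    g ∈ centralizer ({t} : Set G) := by
  rw [mem_centralizer_singleton_iff, ← hk]
  exact ((Commute.pow_right (show Commute g x from hg) k)).eq

/-- Transport of counting problems into the group `GL(2,3)`. -/
theorem card_transport (P : G → Prop) (hP : ∀ g, P g → g ∈ centralizer ({t} : Set G)) :
    Nat.card {g // P g} = Nat.card {x : GL23 // P (inG e x)} := by
  refine Nat.card_congr ⟨fun g => ⟨e ⟨g.1, hP _ g.2⟩, ?_⟩, fun x => ⟨inG e x.1, x.2⟩, ?_, ?_⟩
  · have : inG e (e ⟨g.1, hP _ g.2⟩) = g.1 := by simp [inG]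
    rw [this]
    exact g.2
  · rintro ⟨g, hg⟩
    simp [inG]
  · rintro ⟨x, hx⟩
    simp [inG]

/-- Size of the centralizer of an element having `t` as a power. -/
theorem card_centralizer (x : GL23) (k : ℕ) (hk : x ^ k = -1) :
    Nat.card (centralizer ({inG e x} : Set G)) = Fintype.card {y : GL23 // y * x = x * y} := by
  classical
  have h1 : Nat.card (centralizer ({inG e x} : Set G)) = Nat.card {g : G // g * inG e x = inG e x * g} := by
    refine Nat.card_congr (Equiv.subtypeEquivRight fun g => ?_)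
    rw [mem_centralizer_singleton_iff]
  have hk' : (inG e x) ^ k = t := by rw [← inG_pow, hk, inG_neg_one e ht]
  rw [h1, card_transport e ht (fun g => g * inG e x = inG e x * g)
    (fun g hg => mem_of_comm_pow ht hk' hg), ← Nat.card_eq_fintype_card]
  refine Nat.card_congr (Equiv.subtypeEquivRight fun y => ?_)
  rw [← inG_mul, ← inG_mul, inG_eq_iff]

/-- `PP` forces membership in the centralizer. -/
theorem PP_mem {x u : G} {k : ℕ} (hk : x ^ k = t) (h : PP x u) : u ∈ centralizer ({t} : Set G) := by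
  have h1 := PP_invert h
  rw [mem_centralizer_singleton_iff]
  have h2 : u * t * u⁻¹ = t := by
    have h3 : u * x ^ k * u⁻¹ = (u * x * u⁻¹) ^ k := by
      rw [conj_pow]
    rw [← hk, h3, h1, inv_pow, hk, t_inv ht]
  calc u * t = u * t * u⁻¹ * u := by group
    _ = t * u := by rw [h2]

theorem PP_inG_iff (x w : GL23) :
    PP (inG e w) (inG e x) ↔ (x ^ 2 = 1 ∧ x ≠ 1) ∧ ((x⁻¹ * w) ^ 2 = 1 ∧ x⁻¹ * w ≠ 1) := by
  unfold PP
  rw [← inG_inv, ← inG_mul, ← inG_pow, ← inG_pow, ← inG_one e, inG_eq_iff, inG_eq_iff]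
  simp only [ne_eq, inG_one, inG_eq_one_iff]

/-- Count of the factorizations. -/
theorem card_PP (x : GL23) (k : ℕ) (hk : x ^ k = -1) :
    Nat.card {u : G // PP (inG e x) u} = Fintype.card {y : GL23 //
      (y ^ 2 = 1 ∧ y ≠ 1) ∧ ((y⁻¹ * x) ^ 2 = 1 ∧ y⁻¹ * x ≠ 1)} := by
  classical
  have hk' : (inG e x) ^ k = t := by rw [← inG_pow, hk, inG_neg_one e ht]
  rw [card_transport e ht (PP (inG e x)) (fun g hg => PP_mem ht hk' hg), ← Nat.card_eq_fintype_card]
  refine Nat.card_congr (Equiv.subtypeEquivRight fun y => ?_)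
  rw [PP_inG_iff e ht]

include e in
/-- The fibres of the conjugation map. -/
theorem card_fiber {u a₀ : G} (ha₀ : a₀ * t * a₀⁻¹ = u) :
    Nat.card {a : G // a * t * a⁻¹ = u} = 48 := by
  have h48 : Nat.card (centralizer ({t} : Set G)) = 48 := by
    rw [Nat.card_congr e.toEquiv, Nat.card_eq_fintype_card, card_all]
  rw [← h48]
  refine Nat.card_congr ⟨fun a => ⟨a₀⁻¹ * a.1, ?_⟩, fun s => ⟨a₀ * s.1, ?_⟩, ?_, ?_⟩
  · rw [mem_centralizer_singleton_iff]
    have h : a.1 * t * a.1⁻¹ = a₀ * t * a₀⁻¹ := a.2.trans ha₀.symm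
    have h1 : a.1 * t = a₀ * t * a₀⁻¹ * a.1 := by rw [← h]; group
    calc a₀⁻¹ * a.1 * t = a₀⁻¹ * (a.1 * t) := by group
      _ = t * (a₀⁻¹ * a.1) := by rw [h1]; group
  · have h2 := s.2
    rw [mem_centralizer_singleton_iff] at h2
    rw [← ha₀]
    calc a₀ * s.1 * t * (a₀ * s.1)⁻¹ = a₀ * (s.1 * t) * (a₀ * s.1)⁻¹ := by group
      _ = a₀ * t * a₀⁻¹ := by rw [h2]; group
  · rintro ⟨a, ha⟩
    simp
  · rintro ⟨s, hs⟩
    simp

end

section Sylow

variable {G : Type*} [Group G] [Finite G] {t : G} (e : centralizer ({t} : Set G) ≃* GL23)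
  (ht : orderOf t = 2)

/-- The Sylow subgroup of `GL(2,3)`. -/
def S23 : Subgroup GL23 where
  carrier := {x | inS x}
  mul_mem' := fun {a b} ha hb => inS_mul a b ha hb
  one_mem' := inS_one
  inv_mem' := fun {a} ha => inS_inv a ha

/-- Its image in `G`. -/
def SG : Subgroup G := (S23.map e.symm.toMonoidHom).map (centralizer ({t} : Set G)).subtype

omit [Finite G] in
theorem mem_SG {g : G} : g ∈ SG e ↔ ∃ x : GL23, inS x ∧ inG e x = g := by
  constructor
  · rintro ⟨y, ⟨x, hx, rfl⟩, rfl⟩
    exact ⟨x, hx, rfl⟩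
  · rintro ⟨x, hx, rfl⟩
    exact ⟨_, ⟨x, hx, rfl⟩, rfl⟩

theorem card_SG : Nat.card (SG e) = 2 ^ 4 := by
  have h1 : Nat.card (SG e) = Nat.card (S23.map e.symm.toMonoidHom) :=
    Subgroup.card_map_of_injective (Subtype.val_injective)
  have h2 : Nat.card (S23.map e.symm.toMonoidHom) = Nat.card S23 :=
    Subgroup.card_map_of_injective e.symm.injective
  have h3 : Nat.card S23 = 16 := by
    rw [← card_inS, ← Nat.card_eq_fintype_card]
    rfl
  rw [h1, h2, h3]
  norm_num

include ht in
/-- The Sylow subgroup is self-normalizing. -/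
theorem normalizer_SG_le : normalizer (SG e : Set G) ≤ SG e := by
  intro g hg
  have hmem : ∀ y, y ∈ SG e ↔ g * y * g⁻¹ ∈ SG e := fun y => (mem_normalizer_iff.mp hg) y
  have ht1 : t ∈ SG e := (mem_SG e).mpr ⟨-1, inS_neg_one, inG_neg_one e ht⟩
  obtain ⟨x, hx, hxg⟩ := (mem_SG e).mp ((hmem t).mp ht1)
  have hx1 : x ≠ 1 := by
    rintro rfl
    rw [inG_one] at hxg
    apply t_ne_one ht
    have : t = g⁻¹ * (g * t * g⁻¹) * g := by group
    rw [this, ← hxg]
    group
  have hxc : ∀ y : GL23, inS y → x * y = y * x := by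
    intro y hy
    apply inG_inj e
    rw [inG_mul, inG_mul, hxg]
    have hy1 : g⁻¹ * inG e y * g ∈ SG e := by
      rw [hmem]
      convert (mem_SG e).mpr ⟨y, hy, rfl⟩ using 1
      group
    obtain ⟨y', hy', hy2⟩ := (mem_SG e).mp hy1
    have h3 : inG e y = g * inG e y' * g⁻¹ := by rw [hy2]; group
    rw [h3]
    have h4 := inG_comm e y'
    calc g * t * g⁻¹ * (g * inG e y' * g⁻¹) = g * (t * inG e y') * g⁻¹ := by group
      _ = g * (inG e y' * t) * g⁻¹ := by rw [h4]
      _ = g * inG e y' * g⁻¹ * (g * t * g⁻¹) := by group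
  have hxm : x = -1 := inS_center x hx hxc hx1
  rw [hxm, inG_neg_one e ht] at hxg
  have hgC : g ∈ centralizer ({t} : Set G) := by
    rw [mem_centralizer_singleton_iff]
    calc g * t = (g * t * g⁻¹) * g := by group
      _ = t * g := by rw [← hxg]
  obtain ⟨z, rfl⟩ := exists_inG e hgC
  refine (mem_SG e).mpr ⟨z, ?_, rfl⟩
  apply inS_norm
  intro y hy
  have h1 := (hmem (inG e y)).mp ((mem_SG e).mpr ⟨y, hy, rfl⟩)
  obtain ⟨y', hy', hy2⟩ := (mem_SG e).mp h1
  have : z * y * z⁻¹ = y' := by
    apply inG_inj e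
    rw [hy2, inG_mul, inG_mul, inG_inv]
  rw [this]
  exact hy'

include e ht in
/-- `|G| ≡ 16 mod 32`. -/
theorem card_mod : Nat.card G % 32 = 16 := by
  have : Fact (Nat.Prime 2) := ⟨Nat.prime_two⟩
  have h2 := Sylow.card_normalizer_modEq_card (card_SG e)
  have h3 : normalizer (SG e : Set G) = SG e :=
    le_antisymm (normalizer_SG_le e ht) le_normalizer
  rw [h3, card_SG e] at h2
  have h4 : 2 ^ 4 % 2 ^ (4 + 1) = Nat.card G % 2 ^ (4 + 1) := h2
  omega

end Sylow

section Main

variable {G : Type*} [Group G] [Finite G] {t : G} (e : centralizer ({t} : Set G) ≃* GL23)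
  (ht : orderOf t = 2)

/-- The element of order eight. -/
def cc : G := inG e s

/-- The element of order six. -/
def ww : G := inG e w

include ht in
theorem cc_four : (cc e) ^ 4 = t := by
  rw [cc, ← inG_pow, s_four, inG_neg_one e ht]

include ht in
theorem ww_three : (ww e) ^ 3 = t := by
  rw [ww, ← inG_pow, w_three, inG_neg_one e ht]

include ht in
theorem cc_eight : (cc e) ^ 8 = 1 := by
  have : (cc e) ^ 8 = ((cc e) ^ 4) ^ 2 := by rw [← pow_mul]
  rw [this, cc_four e ht, t_sq ht]

include ht in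
theorem ww_six : (ww e) ^ 6 = 1 := by
  have : (ww e) ^ 6 = ((ww e) ^ 3) ^ 2 := by rw [← pow_mul]
  rw [this, ww_three e ht, t_sq ht]

theorem cc_conj : IsConj (cc e) ((cc e) ^ 3) := by
  rw [isConj_iff]
  obtain ⟨g, hg⟩ := conj_s
  refine ⟨inG e g, ?_⟩
  rw [cc, ← inG_inv, ← inG_mul, ← inG_mul, hg, inG_pow]

theorem ww_conj : IsConj (ww e) (ww e)⁻¹ := by
  rw [isConj_iff]
  obtain ⟨g, hg⟩ := conj_w
  refine ⟨inG e g, ?_⟩
  rw [ww, ← inG_inv, ← inG_inv, ← inG_mul, ← inG_mul, hg]

include e in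
theorem card_C_t : Nat.card (centralizer ({t} : Set G)) = 48 := by
  rw [Nat.card_congr e.toEquiv, Nat.card_eq_fintype_card, card_all]

include ht in
theorem card_C_cc : Nat.card (centralizer ({cc e} : Set G)) = 8 := by
  rw [cc, card_centralizer e ht s 4 s_four, card_s]

include ht in
theorem card_C_cc2 : Nat.card (centralizer ({(cc e) ^ 2} : Set G)) = 8 := by
  have h : (cc e) ^ 2 = inG e (s ^ 2) := by rw [cc, inG_pow]
  have h4 : (s ^ 2) ^ 2 = -1 := by rw [← pow_mul, s_four]
  rw [h, card_centralizer e ht (s ^ 2) 2 h4, card_s2]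

include ht in
theorem card_C_ww : Nat.card (centralizer ({ww e} : Set G)) = 6 := by
  rw [ww, card_centralizer e ht w 3 w_three, card_w]

omit [Finite G] in
theorem not_conj_of_pow {a b : G} (k : ℕ) (ha : a ^ k = 1) (hb : b ^ k ≠ 1) : ¬ IsConj a b := by
  intro h
  have h2 := h.pow k
  rw [ha, isConj_one_right] at h2
  exact hb h2

include ht in
theorem cc_four_ne : (cc e) ^ 4 ≠ 1 := by
  rw [cc_four e ht]
  exact t_ne_one ht

include ht in
theorem not_conj_t_ww : ¬ IsConj t (ww e) := by
  refine not_conj_of_pow 2 (t_sq ht) ?_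
  rw [ww, ← inG_pow, Ne, inG_eq_one_iff]
  decide +kernel

include ht in
theorem not_conj_t_cc2 : ¬ IsConj t ((cc e) ^ 2) := by
  refine not_conj_of_pow 2 (t_sq ht) ?_
  rw [← pow_mul]
  exact cc_four_ne e ht

include ht in
theorem not_conj_t_cc : ¬ IsConj t (cc e) := by
  refine not_conj_of_pow 2 (t_sq ht) ?_
  rw [cc, ← inG_pow, Ne, inG_eq_one_iff]
  decide +kernel

include ht in
theorem not_conj_ww_cc2 : ¬ IsConj (ww e) ((cc e) ^ 2) := by
  refine not_conj_of_pow 6 (ww_six e ht) ?_
  have h : ((cc e) ^ 2) ^ 6 = (cc e) ^ 4 := by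
    rw [← pow_mul]
    have : (cc e) ^ (2 * 6) = (cc e) ^ 8 * (cc e) ^ 4 := by rw [← pow_add]
    rw [this, cc_eight e ht, one_mul]
  rw [h]
  exact cc_four_ne e ht

include ht in
theorem not_conj_ww_cc : ¬ IsConj (ww e) (cc e) := by
  refine not_conj_of_pow 6 (ww_six e ht) ?_
  rw [cc, ← inG_pow, Ne, inG_eq_one_iff]
  decide +kernel

include ht in
theorem not_conj_cc2_cc : ¬ IsConj ((cc e) ^ 2) (cc e) := by
  refine not_conj_of_pow 4 ?_ (cc_four_ne e ht)
  rw [← pow_mul]
  exact cc_eight e ht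

include ht in
theorem not_conj_cc_cc5 : ¬ IsConj (cc e) ((cc e) ^ 5) := by
  intro h
  obtain ⟨g, hg⟩ := isConj_iff.mp h
  have h1 : g * t * g⁻¹ = t := by
    rw [← cc_four e ht, ← conj_pow, hg, ← pow_mul]
    have : (cc e) ^ (5 * 4) = ((cc e) ^ 8) ^ 2 * (cc e) ^ 4 := by
      rw [← pow_mul, ← pow_add]
    rw [this, cc_eight e ht, one_pow, one_mul]
  have hgC : g ∈ centralizer ({t} : Set G) := by
    rw [mem_centralizer_singleton_iff]
    calc g * t = (g * t * g⁻¹) * g := by group
      _ = t * g := by rw [h1]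
  obtain ⟨z, rfl⟩ := exists_inG e hgC
  apply not_conj_s z
  apply inG_inj e
  rw [inG_mul, inG_mul, inG_inv, inG_pow]
  exact hg

include ht in
theorem t_ne_one' : t ≠ 1 := t_ne_one ht

include ht in
theorem ww_ne_one : ww e ≠ 1 := by
  intro h
  apply t_ne_one ht
  rw [← ww_three e ht, h, one_pow]

include ht in
theorem cc_ne_one : cc e ≠ 1 := by
  intro h
  apply t_ne_one ht
  rw [← cc_four e ht, h, one_pow]

include ht in
theorem cc2_ne_one : (cc e) ^ 2 ≠ 1 := by
  intro h
  apply t_ne_one ht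
  have : (cc e) ^ 4 = ((cc e) ^ 2) ^ 2 := by rw [← pow_mul]
  rw [← cc_four e ht, this, h, one_pow]

include ht in
theorem orderOf_cc : orderOf (cc e) = 8 := by
  have : Fact (Nat.Prime 2) := ⟨Nat.prime_two⟩
  have h := orderOf_eq_prime_pow (p := 2) (n := 2) (x := cc e) (cc_four_ne e ht) (cc_eight e ht)
  rw [h]
  norm_num

include e ht in
/-- Every involution of a perfect group as above is conjugate to `t`. -/
theorem inv_conj_t (hperf : commutator G = ⊤) {u : G} (hu2 : u ^ 2 = 1) (hu1 : u ≠ 1) :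
    ∃ g, g * t * g⁻¹ = u := by
  classical
  let M : Subgroup G := zpowers (cc e)
  have hMcard : Nat.card M = 8 := by
    rw [Nat.card_zpowers, orderOf_cc e ht]
  have hmod := card_mod e ht
  have hidx : M.index * 8 = Nat.card G := by
    rw [← hMcard, mul_comm]
    exact Subgroup.card_mul_index M
  obtain ⟨q, hq⟩ : ∃ q, Nat.card G = 16 * (2 * q + 1) := ⟨Nat.card G / 32, by omega⟩
  have hidx2 : M.index = 2 * (2 * q + 1) := by omega
  obtain ⟨g, hg⟩ := exists_conj_mem hperf M (2 * q + 1) ⟨q, rfl⟩ hidx2 u hu2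
  refine ⟨g, ?_⟩
  have hg' := (mem_zpowers_iff_mem_range_orderOf).mp hg
  rw [orderOf_cc e ht] at hg'
  obtain ⟨n, hn, hnx⟩ := Finset.mem_image.mp hg'
  have hn8 : n < 8 := Finset.mem_range.mp hn
  have hnx' : g⁻¹ * u * g = inG e (s ^ n) := by
    rw [inG_pow]
    exact hnx.symm
  have h1 : (inG e (s ^ n)) ^ 2 = 1 := by
    rw [← hnx']
    have : (g⁻¹ * u * g) ^ 2 = g⁻¹ * u ^ 2 * g := by simp [pow_two, mul_assoc]
    rw [this, hu2]
    group
  have h2 : inG e (s ^ n) ≠ 1 := by
    rw [← hnx']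
    intro h
    apply hu1
    have : u = g * (g⁻¹ * u * g) * g⁻¹ := by group
    rw [this, h]
    group
  have h3 : (s ^ n) ^ 2 = 1 := by
    apply inG_inj e
    rw [inG_pow, h1, inG_one]
  have h4 : s ^ n ≠ 1 := by
    rintro h
    apply h2
    rw [h, inG_one]
  have h5 := powers_s ⟨n, hn8⟩ h3 h4
  simp only at h5
  rw [h5, inG_neg_one e ht] at hnx'
  rw [← hnx']
  group

section Count

variable [Fintype G] (hperf : commutator G = ⊤)

open scoped Classical in
include e ht hperf in
/-- The count of pairs of conjugates of `t` with product `z`. -/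
theorem count_eq (z : G) (n : ℕ) (hz : Nat.card {u : G // PP z u} = n) :
    ∑ a : G, ∑ b : G, (if z⁻¹ * (a * t * a⁻¹) * (b * t * b⁻¹) = 1 then 1 else 0) = n * 48 * 48 := by
  have ht1 := t_ne_one ht
  have ht2 := t_sq ht
  have hconj : ∀ a : G, ((a * t * a⁻¹) ^ 2 = 1 ∧ a * t * a⁻¹ ≠ 1) := by
    intro a
    constructor
    · have : (a * t * a⁻¹) ^ 2 = a * t ^ 2 * a⁻¹ := by simp [pow_two, mul_assoc]
      rw [this, ht2]; group
    · intro h
      apply ht1
      have : t = a⁻¹ * (a * t * a⁻¹) * a := by group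
      rw [this, h]; group
  -- inner sum
  have hinner : ∀ a : G, ∑ b : G, (if z⁻¹ * (a * t * a⁻¹) * (b * t * b⁻¹) = 1 then 1 else 0) =
      if PP z (a * t * a⁻¹) then 48 else 0 := by
    intro a
    set u := a * t * a⁻¹ with hu
    have h1 : ∀ b : G, z⁻¹ * u * (b * t * b⁻¹) = 1 ↔ b * t * b⁻¹ = u⁻¹ * z := by
      intro b
      constructor
      · intro h
        calc b * t * b⁻¹ = (z⁻¹ * u)⁻¹ * (z⁻¹ * u * (b * t * b⁻¹)) := by group
          _ = u⁻¹ * z := by rw [h]; group
      · intro h
        rw [h]; group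
    simp only [h1]
    rw [Finset.sum_boole]
    by_cases hP : PP z u
    · rw [if_pos hP]
      obtain ⟨b₀, hb₀⟩ := inv_conj_t e ht hperf hP.2.1 hP.2.2
      have := card_fiber e ht hb₀
      rw [Nat.card_eq_fintype_card, Fintype.card_subtype] at this
      rw [this]
      rfl
    · rw [if_neg hP]
      have h0 : Finset.univ.filter (fun b : G => b * t * b⁻¹ = u⁻¹ * z) = ∅ := by
        rw [Finset.filter_eq_empty_iff]
        intro b _ hb
        apply hP
        refine ⟨hconj a, ?_⟩
        rw [← hb]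
        exact hconj b
      rw [h0]
      rfl
  simp only [hinner]
  rw [Finset.sum_ite, Finset.sum_const_zero, add_zero, Finset.sum_const, smul_eq_mul]
  -- the number of `a`
  have hcard : (Finset.univ.filter fun a : G => PP z (a * t * a⁻¹)).card = n * 48 := by
    have hpp : (Finset.univ.filter (PP z)).card = n := by
      rw [← Fintype.card_subtype, ← Nat.card_eq_fintype_card]
      exact hz
    rw [Finset.card_eq_sum_card_fiberwise (f := fun a : G => a * t * a⁻¹)
      (t := Finset.univ.filter (PP z))]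
    · have : ∀ u ∈ Finset.univ.filter (PP z),
          ((Finset.univ.filter fun a : G => PP z (a * t * a⁻¹)).filter
            (fun a => a * t * a⁻¹ = u)).card = 48 := by
        intro u hu
        have hPu : PP z u := by simpa using hu
        obtain ⟨a₀, ha₀⟩ := inv_conj_t e ht hperf hPu.1.1 hPu.1.2
        have h8 := card_fiber e ht ha₀
        rw [Nat.card_eq_fintype_card, Fintype.card_subtype] at h8
        rw [← h8]
        congr 1
        ext a
        simp only [Finset.mem_filter, Finset.mem_univ, true_and]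
        constructor
        · exact fun h => h.2
        · intro h
          exact ⟨by rw [h]; exact hPu, h⟩
      rw [Finset.sum_congr rfl this, Finset.sum_const, hpp]
      rfl
    · intro a ha
      simpa using ha
  rw [hcard]

end Count

include e in
/-- A simple group with such an involution is perfect. -/
theorem perfect [IsSimpleGroup G] : commutator G = ⊤ := by
  rcases IsSimpleGroup.eq_bot_or_eq_top_of_normal (commutator G) inferInstance with h | h
  · exfalso
    obtain ⟨x, y, hxy⟩ := noncomm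
    apply hxy
    apply inG_inj e
    rw [inG_mul, inG_mul]
    have h1 : ⁅inG e x, inG e y⁆ ∈ commutator G :=
      Subgroup.commutator_mem_commutator (mem_top _) (mem_top _)
    rw [h, Subgroup.mem_bot, commutatorElement_eq_one_iff_mul_comm] at h1
    exact h1
  · exact h

end Main

end Cfsg.Agent.Lib.GL23Group
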