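import Mathlib
import Cfsg.Agent.Lib.CharBasic
import Cfsg.Agent.Lib.CharInd
import Cfsg.Agent.Lib.CharAvg
import Cfsg.Agent.Lib.CharKernel
import Cfsg.Agent.Lib.D8CentChar
import Cfsg.Agent.Lib.GL23Pattern
import Cfsg.Agent.Lib.GL23Group
import Cfsg.Agent.Lib.GL23Roots

/-!
# Simple groups with an involution whose centralizer is `GL(2,3)`: the characters
-/

set_option autoImplicit false
set_option linter.unusedVariables false
set_option linter.unusedSectionVars false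

namespace Cfsg.Agent.Lib.GL23Char

open Subgroup Cfsg Cfsg.Agent.Lib.CharBasic Cfsg.Agent.Lib.CharInd Cfsg.Agent.Lib.GL23Dec
  Cfsg.Agent.Lib.GL23Group Cfsg.Agent.Lib.GL23Roots
open scoped ComplexConjugate

theorem sep_int (a b : ℤ) (h : (a : ℂ) + (b : ℂ) * kappa = 0) : a = 0 ∧ b = 0 := by
  have hre := congrArg Complex.re h
  have him := congrArg Complex.im h
  simp [kappa, s2] at hre him
  constructor
  · exact_mod_cast hre
  · exact_mod_cast him

theorem sep_rat (a b : ℚ) (h : (a : ℂ) + (b : ℂ) * kappa = 0) : a = 0 := by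
  have hre := congrArg Complex.re h
  simp [kappa, s2] at hre
  exact_mod_cast hre

section Main

variable {G : Type*} [Group G] [Fintype G]

theorem hom_trivial' (hperf : commutator G = ⊤) (f : G →* ℂˣ) (g : G) : f g = 1 := by
  have h1 : commutator G ≤ f.ker := by
    rw [commutator_def, Subgroup.commutator_le]
    intro a _ b _
    rw [MonoidHom.mem_ker, map_commutatorElement, commutatorElement_eq_one_iff_commute]
    exact Commute.all _ _
  rw [hperf] at h1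
  exact h1 (mem_top g)

/-- Orthogonality for two classes with integer values, conjugate case. -/
theorem orth_pos (x y : G) (f h : IrrCharacter G → ℤ) (A : ℕ)
    (hf : ∀ χ : IrrCharacter G, (χ : G → ℂ) x = f χ) (hh : ∀ χ : IrrCharacter G, (χ : G → ℂ) y = h χ)
    (hA : Nat.card (centralizer ({y} : Set G)) = A) (hc : IsConj x y) :
    ∑ χ, f χ * h χ = A := by
  have h1 := sum_irr_mul_conj x y
  rw [if_pos hc, hA] at h1
  have h2 : ((∑ χ, f χ * h χ : ℤ) : ℂ) = ((A : ℤ) : ℂ) := by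
    push_cast
    rw [← h1]
    refine Finset.sum_congr rfl fun χ _ => ?_
    rw [hf, hh]
    simp
  exact_mod_cast h2

/-- Orthogonality for two classes with integer values, non-conjugate case. -/
theorem orth_neg (x y : G) (f h : IrrCharacter G → ℤ)
    (hf : ∀ χ : IrrCharacter G, (χ : G → ℂ) x = f χ) (hh : ∀ χ : IrrCharacter G, (χ : G → ℂ) y = h χ)
    (hc : ¬ IsConj x y) : ∑ χ, f χ * h χ = 0 := by
  have h1 := sum_irr_mul_conj x y
  rw [if_neg hc] at h1
  have h2 : ((∑ χ, f χ * h χ : ℤ) : ℂ) = ((0 : ℤ) : ℂ) := by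
    push_cast
    rw [← h1]
    refine Finset.sum_congr rfl fun χ _ => ?_
    rw [hf, hh]
    simp
  exact_mod_cast h2

/-- Orthogonality against a non-real class. -/
theorem orth_kappa (x c : G) (f R H : IrrCharacter G → ℤ)
    (hf : ∀ χ : IrrCharacter G, (χ : G → ℂ) x = f χ)
    (hc : ∀ χ : IrrCharacter G, (χ : G → ℂ) c = (R χ : ℂ) + (H χ : ℂ) * kappa)
    (hn : ¬ IsConj x c) : ∑ χ, f χ * R χ = 0 ∧ ∑ χ, f χ * H χ = 0 := by
  have h1 := sum_irr_mul_conj x c
  rw [if_neg hn] at h1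
  have h3 : ∑ χ : IrrCharacter G, (χ : G → ℂ) x * conj ((χ : G → ℂ) c) =
      ∑ χ : IrrCharacter G, (((f χ : ℂ) * (R χ : ℂ)) + (- ((f χ : ℂ) * (H χ : ℂ))) * kappa) := by
    refine Finset.sum_congr rfl fun χ _ => ?_
    rw [hf, hc]
    simp only [map_add, map_mul, conj_kappa, map_intCast]
    ring
  rw [h1, Finset.sum_add_distrib, ← Finset.sum_mul, Finset.sum_neg_distrib] at h3
  have h2 : ((∑ χ, f χ * R χ : ℤ) : ℂ) + ((- ∑ χ, f χ * H χ : ℤ) : ℂ) * kappa = 0 := by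
    push_cast
    exact h3.symm
  obtain ⟨h4, h5⟩ := sep_int _ _ h2
  exact ⟨h4, by omega⟩

end Main

section Final

variable {G : Type*} [Group G] [Finite G] [IsSimpleGroup G] {t : G}

/-- The theorem. -/
theorem card_eq (ht : orderOf t = 2) (e : centralizer ({t} : Set G) ≃* GL23) :
    Nat.card G = 5616 ∨ Nat.card G = 7920 := by
  classical
  let _ : Fintype G := Fintype.ofFinite G
  have hperf : commutator G = ⊤ := perfect e
  set c : G := cc e with hc
  set W : G := ww e with hW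
  have hc8 : c ^ 8 = 1 := cc_eight e ht
  have hc4 : c ^ 4 = t := cc_four e ht
  have hW6 : W ^ 6 = 1 := ww_six e ht
  have hW3 : W ^ 3 = t := ww_three e ht
  have hv8 := fun χ : IrrCharacter G =>
    char_values8 (IsIrrCharacter.isCharacter χ.2) hc8 (cc_conj e)
  have hv6 := fun χ : IrrCharacter G =>
    char_values6 (IsIrrCharacter.isCharacter χ.2) hW6 (ww_conj e)
  choose a b m p q h1 h2 h3 h4 h5 using hv8
  choose y c' h6 h7 using hv6
  -- the integer rows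
  let D : IrrCharacter G → ℤ := fun χ => a χ + b χ + 2 * m χ + 2 * p χ + 2 * q χ
  let v : IrrCharacter G → ℤ := fun χ => a χ + b χ + 2 * m χ - 2 * p χ - 2 * q χ
  let n₁ : IrrCharacter G → ℤ := fun χ => (a χ : ℤ) - m χ
  let n₂ : IrrCharacter G → ℤ := fun χ => (b χ : ℤ) - m χ
  let I : IrrCharacter G → ℤ := fun χ => a χ + b χ - 2 * m χ
  let R : IrrCharacter G → ℤ := fun χ => (a χ : ℤ) - b χ
  let H : IrrCharacter G → ℤ := fun χ => (p χ : ℤ) - q χ
  have vD : ∀ χ : IrrCharacter G, (χ : G → ℂ) 1 = D χ := by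
    intro χ; rw [h1]; simp [D]
  have vt : ∀ χ : IrrCharacter G, (χ : G → ℂ) t = v χ := by
    intro χ; rw [← hc4, h2]; simp [v]
  have vI : ∀ χ : IrrCharacter G, (χ : G → ℂ) (c ^ 2) = I χ := by
    intro χ; rw [h3]; simp [I]
  have vc : ∀ χ : IrrCharacter G, (χ : G → ℂ) c = (R χ : ℂ) + (H χ : ℂ) * kappa := by
    intro χ; rw [h4]; simp [R, H]
  have vc5 : ∀ χ : IrrCharacter G, (χ : G → ℂ) (c ^ 5) = (R χ : ℂ) + ((- H χ : ℤ) : ℂ) * kappa := by
    intro χ; rw [h5]; simp [R, H]; ring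
  have vW : ∀ χ : IrrCharacter G, (χ : G → ℂ) W = y χ := h6
  have hvy : ∀ χ, v χ = y χ + 3 * c' χ := by
    intro χ
    have h8 := h7 χ
    rw [hW3, vt] at h8
    exact_mod_cast h8
  have hI' : ∀ χ, I χ = n₁ χ + n₂ χ := by intro χ; simp only [I, n₁, n₂]; ring
  have hR' : ∀ χ, R χ = n₁ χ - n₂ χ := by intro χ; simp only [R, n₁, n₂]; ring
  have hm' : ∀ χ, ∃ m' p' q' : ℤ, v χ = n₁ χ + n₂ χ + 4 * m' - 2 * (p' + q') ∧
      D χ = n₁ χ + n₂ χ + 4 * m' + 2 * (p' + q') ∧ H χ = p' - q' := by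
    intro χ
    refine ⟨m χ, p χ, q χ, ?_, ?_, ?_⟩
    · simp only [v, n₁, n₂]; ring
    · simp only [D, n₁, n₂]; ring
    · simp only [H]
  -- orthogonality
  have vv := orth_pos t t v v 48 vt vt (card_C_t e) (IsConj.refl t)
  have yy := orth_pos W W y y 6 vW vW (card_C_ww e ht) (IsConj.refl W)
  have II := orth_pos (c ^ 2) (c ^ 2) I I 8 vI vI (card_C_cc2 e ht) (IsConj.refl _)
  have vy := orth_neg t W v y vt vW (not_conj_t_ww e ht)
  have vI0 := orth_neg t (c ^ 2) v I vt vI (not_conj_t_cc2 e ht)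
  have yI0 := orth_neg W (c ^ 2) y I vW vI (not_conj_ww_cc2 e ht)
  have DI := orth_neg 1 (c ^ 2) D I vD vI (by
    rw [isConj_one_right]
    exact (cc2_ne_one e ht))
  obtain ⟨vR0, vH0⟩ := orth_kappa t c v R H vt vc (not_conj_t_cc e ht)
  obtain ⟨yR0, yH0⟩ := orth_kappa W c y R H vW vc (not_conj_ww_cc e ht)
  obtain ⟨IR, IH⟩ := orth_kappa (c ^ 2) c I R H vI vc (not_conj_cc2_cc e ht)
  obtain ⟨DR, DH⟩ := orth_kappa 1 c D R H vD vc (by
    rw [isConj_one_right]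
    exact (cc_ne_one e ht))
  have vv' : ∑ χ, v χ ^ 2 = 48 := by simp only [pow_two]; exact_mod_cast vv
  have yy' : ∑ χ, y χ ^ 2 = 6 := by simp only [pow_two]; exact_mod_cast yy
  have II' : ∑ χ, I χ ^ 2 = 8 := by simp only [pow_two]; exact_mod_cast II
  have vy' : ∑ χ, v χ * y χ = 0 := vy
  -- the non-real class
  have S1 : ∑ χ, (R χ ^ 2 + 2 * H χ ^ 2) = 8 := by
    have h8 := sum_irr_mul_conj c c
    rw [if_pos (IsConj.refl c), card_C_cc e ht] at h8
    have h9 : ((∑ χ, (R χ ^ 2 + 2 * H χ ^ 2) : ℤ) : ℂ) = ((8 : ℤ) : ℂ) := by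
      push_cast
      push_cast at h8
      rw [← h8]
      refine Finset.sum_congr rfl fun χ _ => ?_
      rw [vc]
      simp only [map_add, map_mul, conj_kappa, map_intCast]
      have := kappa_sq
      linear_combination ((H χ : ℂ) ^ 2 ) * this
    exact_mod_cast h9
  have S2 : (∑ χ, (R χ ^ 2 - 2 * H χ ^ 2) = 0) ∧ (∑ χ, 2 * (R χ * H χ) = 0) := by
    have h8 := sum_irr_mul_conj c (c ^ 5)
    rw [if_neg (not_conj_cc_cc5 e ht)] at h8
    have h10 : ∑ χ : IrrCharacter G, (χ : G → ℂ) c * conj ((χ : G → ℂ) (c ^ 5)) =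
        ∑ χ : IrrCharacter G, ((((R χ ^ 2 - 2 * H χ ^ 2 : ℤ) : ℂ)) + ((2 * (R χ * H χ) : ℤ) : ℂ) * kappa) := by
      refine Finset.sum_congr rfl fun χ _ => ?_
      rw [vc, vc5]
      simp only [map_add, map_mul, conj_kappa, map_intCast]
      push_cast
      have := kappa_sq
      linear_combination ((H χ : ℂ) ^ 2 ) * this
    rw [h8, Finset.sum_add_distrib, ← Finset.sum_mul] at h10
    apply sep_int
    push_cast
    push_cast at h10
    exact h10.symm
  have RR : ∑ χ, R χ ^ 2 = 4 := by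
    have h8 := S2.1
    rw [Finset.sum_sub_distrib, ← Finset.mul_sum] at h8
    rw [Finset.sum_add_distrib, ← Finset.mul_sum] at S1
    linarith
  have HH : ∑ χ, H χ ^ 2 = 2 := by
    have h8 := S2.1
    rw [Finset.sum_sub_distrib, ← Finset.mul_sum] at h8
    rw [Finset.sum_add_distrib, ← Finset.mul_sum] at S1
    linarith
  have RH : ∑ χ, R χ * H χ = 0 := by
    have h8 := S2.2
    rw [← Finset.mul_sum] at h8
    linarith
  -- the principal character
  let i₀ : IrrCharacter G := ⟨fun _ => 1, isIrrCharacter_one⟩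
  have D0 : D i₀ = 1 := by
    have h := vD i₀
    have h' : ((D i₀ : ℤ) : ℂ) = ((1 : ℤ) : ℂ) := by rw [← h]; simp [i₀]
    exact_mod_cast h'
  have v0 : v i₀ = 1 := by
    have h := vt i₀
    have h' : ((v i₀ : ℤ) : ℂ) = ((1 : ℤ) : ℂ) := by rw [← h]; simp [i₀]
    exact_mod_cast h'
  have y0 : y i₀ = 1 := by
    have h := vW i₀
    have h' : ((y i₀ : ℤ) : ℂ) = ((1 : ℤ) : ℂ) := by rw [← h]; simp [i₀]
    exact_mod_cast h'
  have I0 : I i₀ = 1 := by
    have h := vI i₀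
    have h' : ((I i₀ : ℤ) : ℂ) = ((1 : ℤ) : ℂ) := by rw [← h]; simp [i₀]
    exact_mod_cast h'
  obtain ⟨R0, H0⟩ : R i₀ = 1 ∧ H i₀ = 0 := by
    have h := vc i₀
    have h' : 1 = (R i₀ : ℂ) + (H i₀ : ℂ) * kappa := h
    have h'' := sep_int (R i₀ - 1) (H i₀) (by push_cast; linear_combination -h')
    exact ⟨by omega, h''.2⟩
  have hDpos : ∀ χ, 0 < D χ := by
    intro χ
    obtain ⟨n, hn, h8⟩ := Cfsg.Agent.Lib.CharAvg.irr_one_eq χ.2
    rw [vD] at h8
    have h9 : D χ = n := by exact_mod_cast h8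
    omega
  have hperf' : ∀ χ, D χ = 1 → χ = i₀ := by
    intro χ h8
    have h9 : (χ : G → ℂ) 1 = 1 := by rw [vD, h8]; simp
    obtain ⟨f, hf⟩ := exists_hom_of_degree_one (IsIrrCharacter.isCharacter χ.2) h9
    apply Subtype.ext
    funext g
    rw [hf, hom_trivial' hperf f g]
    simp [i₀]
  -- the moments
  have hNne : (Nat.card G : ℂ) ≠ 0 := by
    exact_mod_cast (Nat.card_pos (α := G)).ne'
  have hmain : ∀ (z : G) (n : ℕ), Nat.card {u : G // Cfsg.Agent.Lib.D8CentGroup.PP z u} = n →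
      (Nat.card G : ℂ) * ∑ χ : IrrCharacter G, (χ : G → ℂ) t ^ 2 * (χ : G → ℂ) z⁻¹ / (χ : G → ℂ) 1 =
        (n : ℂ) * 2304 := by
    intro z n hz
    have h8 := Cfsg.Agent.Lib.D8CentChar.struct_formula t z
    have h9 := count_eq e ht hperf z n hz
    rw [h9] at h8
    push_cast at h8
    have h10 : (Nat.card G : ℂ) * ((Nat.card G : ℂ) * ∑ χ : IrrCharacter G,
        (χ : G → ℂ) t ^ 2 * (χ : G → ℂ) z⁻¹ / (χ : G → ℂ) 1) = (Nat.card G : ℂ) * ((n : ℂ) * 2304) := by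
      have h11 : (Nat.card G : ℂ) * ((n : ℂ) * 2304) = (Nat.card G : ℂ) * ((n : ℂ) * 48 * 48) := by ring
      rw [h11, h8]
      ring
    exact mul_left_cancel₀ hNne h10
  have hc2 : c ^ 2 = inG e (s ^ 2) := by rw [inG_pow]; rfl
  have hI4 : Nat.card {u : G // Cfsg.Agent.Lib.D8CentGroup.PP (c ^ 2) u} = 4 := by
    have h := card_PP e ht (s ^ 2) 2 (by rw [← pow_mul]; exact s_four)
    rw [card_PP_s2] at h
    rw [hc2]
    exact h
  have hI0 : Nat.card {u : G // Cfsg.Agent.Lib.D8CentGroup.PP c u} = 0 := by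
    have h := card_PP e ht s 4 s_four
    rw [card_PP_s] at h
    exact h
  have vIinv : ∀ χ : IrrCharacter G, (χ : G → ℂ) (c ^ 2)⁻¹ = I χ := by
    intro χ
    rw [← char_conj_eq_inv (IsIrrCharacter.isCharacter χ.2), vI, map_intCast]
  have vcinv : ∀ χ : IrrCharacter G, (χ : G → ℂ) c⁻¹ = (R χ : ℂ) + ((- H χ : ℤ) : ℂ) * kappa := by
    intro χ
    rw [← char_conj_eq_inv (IsIrrCharacter.isCharacter χ.2), vc]
    simp only [map_add, map_mul, conj_kappa, map_intCast]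
    push_cast
    ring
  have mI : (Nat.card G : ℚ) * ∑ χ, ((v χ : ℚ) ^ 2 * (I χ : ℚ) / (D χ : ℚ)) = 9216 := by
    have h := hmain (c ^ 2) 4 hI4
    simp only [vt, vIinv, vD] at h
    have h' : (((Nat.card G : ℚ) * ∑ χ, ((v χ : ℚ) ^ 2 * (I χ : ℚ) / (D χ : ℚ)) : ℚ) : ℂ) =
        ((9216 : ℚ) : ℂ) := by
      push_cast
      rw [h]
      norm_num
    exact_mod_cast h'
  have mR : (Nat.card G : ℚ) * ∑ χ, ((v χ : ℚ) ^ 2 * (R χ : ℚ) / (D χ : ℚ)) = 0 := by
    have h := hmain c 0 hI0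
    simp only [vt, vcinv, vD] at h
    have h1 : ∑ χ : IrrCharacter G, ((v χ : ℂ) ^ 2 * ((R χ : ℂ) + ((- H χ : ℤ) : ℂ) * kappa) / (D χ : ℂ)) = 0 := by
      have h2 : (Nat.card G : ℂ) * ∑ χ : IrrCharacter G,
          ((v χ : ℂ) ^ 2 * ((R χ : ℂ) + ((- H χ : ℤ) : ℂ) * kappa) / (D χ : ℂ)) = 0 := by
        rw [h]
        norm_num
      exact (mul_eq_zero.mp h2).resolve_left hNne
    have h3 : ((∑ χ, ((v χ : ℚ) ^ 2 * (R χ : ℚ) / (D χ : ℚ)) : ℚ) : ℂ) +
        ((∑ χ, ((v χ : ℚ) ^ 2 * ((- H χ : ℤ) : ℚ) / (D χ : ℚ)) : ℚ) : ℂ) * kappa = 0 := by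
      rw [← h1]
      push_cast
      rw [Finset.sum_mul, ← Finset.sum_add_distrib]
      refine Finset.sum_congr rfl fun χ _ => ?_
      ring
    rw [sep_rat _ _ h3, mul_zero]
  exact Cfsg.Agent.Lib.GL23Pattern.rows_main D v y c' n₁ n₂ I R H i₀ (Nat.card G) hDpos D0 hperf' hvy hI' hR'
    hm' vv' yy' vy' II' RR HH IR IH RH vI0 vR0 vH0 yI0 yR0 yH0 DI DR DH v0 y0 I0 R0 H0 mI mR

end Final

end Cfsg.Agent.Lib.GL23Char
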