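import Mathlib

/-!
# A numerical inequality for the class number of `GL_n(q)`

`K q k L m` counts (an upper bound for) the number of tuples of monic polynomials with nonzero constant
term, indexed by `i < k`, of total degree `L` and weighted total degree `∑ (i+1) deg = m`.  We show that
`∑ L, K q (k+1) L n ≤ q ^ n` for `n ≥ 1`.
-/

set_option autoImplicit false

namespace Cfsg.Agent.Lib.GLCount

open Finset

/-- The number of monic polynomials of degree `a` with nonzero constant term. -/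
def cc (q a : ℕ) : ℕ := if a = 0 then 1 else q ^ a - q ^ (a - 1)

/-- The recursive count of tuples. -/
def K (q : ℕ) : ℕ → ℕ → ℕ → ℕ
  | 0, L, m => if L = 0 ∧ m = 0 then 1 else 0
  | k + 1, L, m => if L ≤ m then ∑ a ∈ range (L + 1), cc q a * K q k (L - a) (m - L) else 0

lemma K_zero_left (q k m : ℕ) : K q k 0 m = if m = 0 then 1 else 0 := by
  induction k with
  | zero => simp [K]
  | succ k ih =>
    simp [K, cc, ih]

lemma K_of_lt (q k L m : ℕ) (h : m < L) : K q k L m = 0 := by
  cases k with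
  | zero =>
    simp only [K]
    rw [if_neg]
    omega
  | succ k =>
    simp only [K]
    rw [if_neg]
    omega

section numeric

variable (q : ℕ)

/-- The normalized count. -/
noncomputable def ff (k L m : ℕ) : ℚ := (K q k L m : ℚ) / (q : ℚ) ^ m

/-- The density of elements with nonzero constant term. -/
noncomputable def rr : ℚ := 1 - 1 / (q : ℚ)

variable (hq : 2 ≤ q)
include hq

lemma q_pos : (0 : ℚ) < q := by
  have : (2 : ℚ) ≤ q := by exact_mod_cast hq
  linarith

lemma rr_pos : 0 < rr q := by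
  have h : (2 : ℚ) ≤ q := by exact_mod_cast hq
  unfold rr
  have : 1 / (q : ℚ) ≤ 1 / 2 := one_div_le_one_div_of_le (by norm_num) h
  linarith

omit hq in
lemma ff_zero_left (k m : ℕ) : ff q k 0 m = if m = 0 then 1 else 0 := by
  unfold ff
  rw [K_zero_left]
  by_cases h : m = 0 <;> simp [h]

omit hq in
lemma ff_of_lt (k L m : ℕ) (h : m < L) : ff q k L m = 0 := by
  unfold ff
  rw [K_of_lt q k L m h]
  simp

lemma cc_div (b c : ℕ) : (cc q (c + 1) : ℚ) / (q : ℚ) ^ (b + c + 1) = rr q * (1 / (q : ℚ) ^ b) := by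
  have hq0 := q_pos q hq
  have hle : q ^ c ≤ q ^ (c + 1) := Nat.pow_le_pow_right (by omega) (by omega)
  simp only [cc, Nat.succ_ne_zero, if_false, Nat.add_sub_cancel]
  rw [Nat.cast_sub hle]
  push_cast
  unfold rr
  field_simp
  ring

lemma ff_succ (k L t : ℕ) :
    ff q (k + 1) L (L + t) =
      (1 / (q : ℚ) ^ L) * ff q k L t + rr q * ∑ b ∈ range L, (1 / (q : ℚ) ^ b) * ff q k b t := by
  have hq0 := q_pos q hq
  have h1 : K q (k + 1) L (L + t) = ∑ a ∈ range (L + 1), cc q a * K q k (L - a) t := by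
    simp [K]
  have h2 : K q (k + 1) L (L + t) = ∑ b ∈ range (L + 1), cc q (L - b) * K q k b t := by
    rw [h1]
    rw [← Finset.sum_range_reflect]
    apply Finset.sum_congr rfl
    intro x hx
    have hx' : x < L + 1 := Finset.mem_range.mp hx
    have e1 : L + 1 - 1 - x = L - x := by omega
    have e3 : L - (L - x) = x := by omega
    simp only [e1, e3]
  unfold ff
  rw [h2, Finset.sum_range_succ]
  push_cast
  rw [Finset.mul_sum, add_comm, add_div, Finset.sum_div]
  congr 1
  · have : cc q (L - L) = 1 := by simp [cc]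
    rw [this, pow_add]
    field_simp
    simp
  · apply Finset.sum_congr rfl
    intro b hb
    have hb' : b < L := Finset.mem_range.mp hb
    obtain ⟨c, rfl⟩ : ∃ c, L = b + c + 1 := ⟨L - b - 1, by omega⟩
    have e : b + c + 1 - b = c + 1 := by omega
    rw [e]
    have h3 := cc_div q hq b c
    have h4 : (cc q (c + 1) : ℚ) = rr q * (1 / (q : ℚ) ^ b) * (q : ℚ) ^ (b + c + 1) := by
      rw [← h3]
      field_simp
    rw [h4, pow_add (q : ℚ) (b + c + 1) t]
    field_simp

/-- The partial sums. -/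
noncomputable def GG (k a m : ℕ) : ℚ := ∑ s ∈ range m, ff q k a s + ff q k a m / rr q

omit hq in
lemma GG_of_lt (k a m : ℕ) (h : m < a) : GG q k a m = 0 := by
  unfold GG
  rw [ff_of_lt q k a m h, zero_div, add_zero]
  apply Finset.sum_eq_zero
  intro s hs
  exact ff_of_lt q k a s (by have := Finset.mem_range.mp hs; omega)

lemma GG_succ (k a t : ℕ) :
    GG q (k + 1) a (a + t) =
      (1 / (q : ℚ) ^ a) * GG q k a t + rr q * ∑ b ∈ range a, (1 / (q : ℚ) ^ b) * GG q k b t := by
  have hr := rr_pos q hq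
  have h1 : ∑ s ∈ range (a + t), ff q (k + 1) a s = ∑ s ∈ range t, ff q (k + 1) a (a + s) := by
    rw [Finset.sum_range_add]
    have : ∑ s ∈ range a, ff q (k + 1) a s = 0 := by
      apply Finset.sum_eq_zero
      intro s hs
      exact ff_of_lt q _ a s (Finset.mem_range.mp hs)
    rw [this, zero_add]
  unfold GG
  rw [h1]
  simp only [ff_succ q hq]
  rw [Finset.sum_add_distrib, ← Finset.mul_sum, ← Finset.mul_sum]
  have h2 : ∑ s ∈ range t, ∑ b ∈ range a, (1 / (q : ℚ) ^ b) * ff q k b s =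
      ∑ b ∈ range a, (1 / (q : ℚ) ^ b) * ∑ s ∈ range t, ff q k b s := by
    rw [Finset.sum_comm]
    simp only [Finset.mul_sum]
  have h3 : ∑ b ∈ range a, (1 / (q : ℚ) ^ b) * (∑ s ∈ range t, ff q k b s + ff q k b t / rr q) =
      ∑ b ∈ range a, (1 / (q : ℚ) ^ b) * ∑ s ∈ range t, ff q k b s +
        (∑ b ∈ range a, (1 / (q : ℚ) ^ b) * ff q k b t) / rr q := by
    rw [Finset.sum_div, ← Finset.sum_add_distrib]
    apply Finset.sum_congr rfl
    intro b _
    ring
  rw [h2, h3]
  field_simp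
  ring

lemma geom_sum (a : ℕ) :
    rr q * ∑ b ∈ range a, (1 / (q : ℚ) ^ (b + 1)) = 1 / (q : ℚ) - 1 / (q : ℚ) ^ (a + 1) := by
  have hq0 := q_pos q hq
  induction a with
  | zero => simp
  | succ a ih =>
    rw [Finset.sum_range_succ, mul_add, ih]
    unfold rr
    field_simp
    ring

omit hq in
lemma GG_zero_pos (k t : ℕ) (ht : 1 ≤ t) : GG q k 0 t = 1 := by
  unfold GG
  rw [ff_zero_left, if_neg (by omega), zero_div, add_zero]
  obtain ⟨t, rfl⟩ : ∃ s, t = s + 1 := ⟨t - 1, by omega⟩
  rw [Finset.sum_range_succ']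
  simp only [ff_zero_left, Nat.add_eq_zero_iff, one_ne_zero, and_false, if_false]
  simp

omit hq in
lemma GG_zero_zero (k : ℕ) : GG q k 0 0 = 1 / rr q := by
  unfold GG
  rw [ff_zero_left]
  simp

omit hq in
lemma GG_pos_zero (k a : ℕ) (ha : 1 ≤ a) : GG q k a 0 = 0 :=
  GG_of_lt q k a 0 (by omega)

lemma GG_le (k : ℕ) : ∀ a m, 1 ≤ a → GG q k a m ≤ 1 := by
  have hq0 := q_pos q hq
  have hr := rr_pos q hq
  induction k with
  | zero =>
    intro a m ha
    have : GG q 0 a m = 0 := by
      unfold GG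
      have h0 : ∀ s, ff q 0 a s = 0 := by
        intro s
        unfold ff
        simp only [K]
        rw [if_neg (by omega)]
        simp
      simp [h0]
    rw [this]
    norm_num
  | succ k ih =>
    intro a m ha
    by_cases hm : m < a
    · rw [GG_of_lt q _ a m hm]
      norm_num
    obtain ⟨t, rfl⟩ : ∃ t, m = a + t := ⟨m - a, by omega⟩
    rw [GG_succ q hq]
    obtain ⟨a, rfl⟩ : ∃ a', a = a' + 1 := ⟨a - 1, by omega⟩
    rw [Finset.sum_range_succ']
    by_cases ht : t = 0
    · subst ht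
      rw [GG_pos_zero q k (a + 1) (by omega), GG_zero_zero]
      have : ∑ b ∈ range a, (1 / (q : ℚ) ^ (b + 1)) * GG q k (b + 1) 0 = 0 := by
        apply Finset.sum_eq_zero
        intro b _
        rw [GG_pos_zero q k (b + 1) (by omega), mul_zero]
      rw [this]
      field_simp
      simp
    · rw [GG_zero_pos q k t (by omega)]
      have h1 : ∑ b ∈ range a, (1 / (q : ℚ) ^ (b + 1)) * GG q k (b + 1) t ≤
          ∑ b ∈ range a, (1 / (q : ℚ) ^ (b + 1)) := by
        apply Finset.sum_le_sum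
        intro b _
        have h2 := ih (b + 1) t (by omega)
        have h3 : (0 : ℚ) ≤ 1 / (q : ℚ) ^ (b + 1) := by positivity
        nlinarith
      have h4 := geom_sum q hq a
      have h5 : (1 / (q : ℚ) ^ (a + 1)) * GG q k (a + 1) t ≤ 1 / (q : ℚ) ^ (a + 1) := by
        have h2 := ih (a + 1) t (by omega)
        have h3 : (0 : ℚ) ≤ 1 / (q : ℚ) ^ (a + 1) := by positivity
        nlinarith
      have h6 : rr q * ∑ b ∈ range a, (1 / (q : ℚ) ^ (b + 1)) * GG q k (b + 1) t ≤
          rr q * ∑ b ∈ range a, (1 / (q : ℚ) ^ (b + 1)) := mul_le_mul_of_nonneg_left h1 hr.le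
      have h7 : rr q = 1 - 1 / (q : ℚ) := rfl
      simp only [pow_zero, div_one, one_mul]
      rw [mul_add]
      nlinarith

omit hq in
lemma double_sum (X : ℕ → ℕ → ℚ) (n : ℕ) :
    ∑ L ∈ range n, ∑ b ∈ range (L + 1), X b (n - 1 - L) =
      ∑ b ∈ range n, ∑ s ∈ range (n - b), X b s := by
  rw [Finset.sum_comm' (s' := fun b => Ico b n) (t' := range n)]
  · apply Finset.sum_congr rfl
    intro b hb
    rw [Finset.sum_Ico_eq_sum_range]
    rw [← Finset.sum_range_reflect (fun s => X b s)]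
    apply Finset.sum_congr rfl
    intro i hi
    have hi' := Finset.mem_range.mp hi
    have hb' := Finset.mem_range.mp hb
    congr 1
    omega
  · intro x y
    simp only [mem_range, mem_Ico]
    omega

/-- The total count is at most one. -/
theorem total_le (k n : ℕ) (hn : 1 ≤ n) : ∑ L ∈ range (n + 1), ff q (k + 1) L n ≤ 1 := by
  have hq0 := q_pos q hq
  have hr := rr_pos q hq
  rw [Finset.sum_range_succ', ff_zero_left, if_neg (by omega), add_zero]
  have h1 : ∀ L ∈ range n, ff q (k + 1) (L + 1) n =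
      (1 / (q : ℚ) ^ (L + 1)) * ff q k (L + 1) (n - 1 - L) +
        rr q * ∑ b ∈ range (L + 1), (1 / (q : ℚ) ^ b) * ff q k b (n - 1 - L) := by
    intro L hL
    have hL' := Finset.mem_range.mp hL
    have := ff_succ q hq k (L + 1) (n - 1 - L)
    have e : L + 1 + (n - 1 - L) = n := by omega
    rw [e] at this
    exact this
  rw [Finset.sum_congr rfl h1, Finset.sum_add_distrib, ← Finset.mul_sum,
    double_sum (fun b s => (1 / (q : ℚ) ^ b) * ff q k b s) n]
  obtain ⟨n', rfl⟩ : ∃ n', n = n' + 1 := ⟨n - 1, by omega⟩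
  rw [Finset.sum_range_succ (fun L => (1 / (q : ℚ) ^ (L + 1)) * ff q k (L + 1) (n' + 1 - 1 - L)) n']
  rw [Finset.sum_range_succ' (fun b => ∑ s ∈ range (n' + 1 - b), (1 / (q : ℚ) ^ b) * ff q k b s) n']
  have e0 : n' + 1 - 1 - n' = 0 := by omega
  simp only [e0]
  rw [ff_of_lt q k (n' + 1) 0 (by omega), mul_zero, add_zero]
  have h2 : ∑ s ∈ range (n' + 1 - 0), (1 / (q : ℚ) ^ 0) * ff q k 0 s = 1 := by
    rw [Nat.sub_zero, Finset.sum_range_succ']
    simp only [ff_zero_left, Nat.add_eq_zero_iff, one_ne_zero, and_false, if_false]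
    simp
  rw [h2, mul_add, ← add_assoc]
  have h3 : ∀ c ∈ range n', (1 / (q : ℚ) ^ (c + 1)) * ff q k (c + 1) (n' + 1 - 1 - c) =
      rr q * ((1 / (q : ℚ) ^ (c + 1)) * (ff q k (c + 1) (n' - c) / rr q)) := by
    intro c _
    have e : n' + 1 - 1 - c = n' - c := by omega
    rw [e]
    field_simp
  rw [Finset.sum_congr rfl h3, ← Finset.mul_sum, ← mul_add, ← Finset.sum_add_distrib]
  have h4 : ∀ c ∈ range n', (1 / (q : ℚ) ^ (c + 1)) * (ff q k (c + 1) (n' - c) / rr q) +
      ∑ s ∈ range (n' + 1 - (c + 1)), (1 / (q : ℚ) ^ (c + 1)) * ff q k (c + 1) s ≤ 1 / (q : ℚ) ^ (c + 1) := by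
    intro c _
    have e : n' + 1 - (c + 1) = n' - c := by omega
    rw [e, ← Finset.mul_sum, ← mul_add]
    have h5 := GG_le q hq k (c + 1) (n' - c) (by omega)
    have h6 : (0 : ℚ) ≤ 1 / (q : ℚ) ^ (c + 1) := by positivity
    unfold GG at h5
    exact mul_le_of_le_one_right h6 (by linarith)
  have h7 := Finset.sum_le_sum h4
  have h8 := geom_sum q hq n'
  have h9 := mul_le_mul_of_nonneg_left h7 hr.le
  have h10 : rr q = 1 - 1 / (q : ℚ) := rfl
  have h11 : (0 : ℚ) ≤ 1 / (q : ℚ) ^ (n' + 1) := by positivity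
  simp only [pow_zero, div_one, one_mul] at *
  nlinarith

/-- The inequality in the natural numbers. -/
theorem K_total_le (k n : ℕ) (hn : 1 ≤ n) : ∑ L ∈ range (n + 1), K q (k + 1) L n ≤ q ^ n := by
  have hq0 := q_pos q hq
  have h := total_le q hq k n hn
  have h1 : ∑ L ∈ range (n + 1), ff q (k + 1) L n = ((∑ L ∈ range (n + 1), K q (k + 1) L n : ℕ) : ℚ) / (q : ℚ) ^ n := by
    push_cast
    rw [Finset.sum_div]
    rfl
  rw [h1, div_le_one (by positivity)] at h
  exact_mod_cast h

end numeric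

end Cfsg.Agent.Lib.GLCount
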