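import Mathlib
import Cfsg.Agent.Lib.GLCountNum

/-!
# Counting monic polynomials with nonzero constant term, and tuples of them
-/

set_option autoImplicit false

namespace Cfsg.Agent.Lib.GLCount

open Polynomial Finset

variable {F : Type*} [Field F] [Fintype F]

open Classical in
/-- Vectors with nonzero first coordinate. -/
noncomputable def vecSet (F : Type*) [Field F] [Fintype F] (a : ℕ) : Finset (Fin (a + 1) → F) :=
  Fintype.piFinset (fun i => if i = 0 then (univ : Finset F).erase 0 else univ)

lemma mem_vecSet {a : ℕ} {v : Fin (a + 1) → F} : v ∈ vecSet F a ↔ v 0 ≠ 0 := by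
  classical
  unfold vecSet
  rw [Fintype.mem_piFinset]
  constructor
  · intro h
    have := h 0
    simpa using this
  · intro h i
    by_cases hi : i = 0
    · subst hi
      simpa using h
    · simp [hi]

lemma card_vecSet (a : ℕ) : (vecSet F a).card = Fintype.card F ^ (a + 1) - Fintype.card F ^ a := by
  classical
  unfold vecSet
  rw [Fintype.card_piFinset, Fin.prod_univ_succ]
  have h1 : ∀ i : Fin a, (if (Fin.succ i) = (0 : Fin (a + 1)) then (univ : Finset F).erase 0 else univ).card = Fintype.card F := by
    intro i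
    rw [if_neg (Fin.succ_ne_zero i)]
    rfl
  simp only [if_true]
  rw [Finset.prod_congr rfl (fun i _ => h1 i), Finset.card_erase_of_mem (Finset.mem_univ _)]
  simp only [Finset.prod_const, Finset.card_univ, Fintype.card_fin]
  have hq : 1 ≤ Fintype.card F := Fintype.card_pos
  rw [Nat.sub_mul, one_mul, pow_succ']

/-- The monic polynomial with a given vector of lower coefficients. -/
noncomputable def polyOfVec {a : ℕ} (v : Fin a → F) : F[X] := X ^ a + ∑ i : Fin a, C (v i) * X ^ (i : ℕ)

lemma polyOfVec_monic {a : ℕ} (v : Fin a → F) : (polyOfVec v).Monic := by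
  apply Polynomial.monic_X_pow_add
  exact Polynomial.degree_sum_fin_lt v

lemma polyOfVec_natDegree {a : ℕ} (v : Fin a → F) : (polyOfVec v).natDegree = a := by
  unfold polyOfVec
  apply Polynomial.natDegree_eq_of_degree_eq_some
  rw [Polynomial.degree_add_eq_left_of_degree_lt (by
    rw [Polynomial.degree_X_pow]
    exact Polynomial.degree_sum_fin_lt v), Polynomial.degree_X_pow]

lemma polyOfVec_coeff {a : ℕ} (v : Fin a → F) (i : Fin a) : (polyOfVec v).coeff i = v i := by
  classical
  unfold polyOfVec
  rw [Polynomial.coeff_add, Polynomial.coeff_X_pow, if_neg (ne_of_lt i.2), zero_add,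
    Polynomial.finsetSum_coeff, Finset.sum_eq_single i]
  · simp
  · intro b _ hb
    rw [Polynomial.coeff_C_mul_X_pow, if_neg]
    intro h
    exact hb (Fin.ext h.symm)
  · simp

lemma polyOfVec_eq {f : F[X]} (hf : f.Monic) {a : ℕ} (ha : f.natDegree = a) :
    f = polyOfVec (fun i : Fin a => f.coeff i) := by
  subst ha
  conv_lhs => rw [hf.as_sum]
  unfold polyOfVec
  rw [Finset.sum_range]

/-- A bound for the number of monic polynomials of degree `a` with nonzero constant term. -/
lemma mono_bound (a : ℕ) : ∃ s : Finset F[X], (∀ f : F[X], f.Monic → f.natDegree = a → f.coeff 0 ≠ 0 → f ∈ s) ∧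
    s.card ≤ cc (Fintype.card F) a := by
  classical
  cases a with
  | zero =>
    refine ⟨{1}, ?_, by simp [cc]⟩
    intro f hf hd _
    rw [Finset.mem_singleton]
    exact hf.natDegree_eq_zero.mp hd
  | succ a =>
    refine ⟨(vecSet F a).image polyOfVec, ?_, ?_⟩
    · intro f hf hd h0
      rw [Finset.mem_image]
      exact ⟨fun i : Fin (a + 1) => f.coeff i, mem_vecSet.mpr h0, (polyOfVec_eq hf hd).symm⟩
    · refine le_trans Finset.card_image_le ?_
      rw [card_vecSet]
      simp [cc]

/-- Tuples of monic polynomials with nonzero constant terms, with prescribed total degree and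
weighted total degree. -/
def Tup (F : Type*) [Field F] (k L m : ℕ) : Set (Fin k → F[X]) :=
  {T | (∀ i, (T i).Monic ∧ (T i).coeff 0 ≠ 0) ∧ ∑ i, (T i).natDegree = L ∧
    ∑ i : Fin k, ((i : ℕ) + 1) * (T i).natDegree = m}

lemma tup_bound (k : ℕ) : ∀ L m : ℕ, ∃ s : Finset (Fin k → F[X]), (∀ T ∈ Tup F k L m, T ∈ s) ∧
    s.card ≤ K (Fintype.card F) k L m := by
  classical
  induction k with
  | zero =>
    intro L m
    by_cases h : L = 0 ∧ m = 0
    · refine ⟨univ, fun T _ => Finset.mem_univ _, ?_⟩
      simp [K, h]
    · refine ⟨∅, ?_, by simp⟩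
      rintro T ⟨_, h1, h2⟩
      exfalso
      apply h
      simp only [Finset.univ_eq_empty, Finset.sum_empty] at h1 h2
      exact ⟨h1.symm, h2.symm⟩
  | succ k ih =>
    intro L m
    by_cases hLm : L ≤ m
    · choose s₁ hs₁ hs₁' using mono_bound (F := F)
      choose s₂ hs₂ hs₂' using ih
      refine ⟨(range (L + 1)).biUnion (fun a => (s₁ a ×ˢ s₂ (L - a) (m - L)).image (fun p => Fin.cons p.1 p.2)), ?_, ?_⟩
      · rintro T ⟨h1, h2, h3⟩
        rw [Finset.mem_biUnion]
        rw [Fin.sum_univ_succ] at h2 h3
        have h4 : ∑ i : Fin k, (((Fin.succ i : Fin (k + 1)) : ℕ) + 1) * (T (Fin.succ i)).natDegree =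
            ∑ i : Fin k, ((i : ℕ) + 1) * (T (Fin.succ i)).natDegree + ∑ i : Fin k, (T (Fin.succ i)).natDegree := by
          rw [← Finset.sum_add_distrib]
          apply Finset.sum_congr rfl
          intro i _
          simp only [Fin.val_succ]
          ring
        rw [h4] at h3
        simp only [Fin.val_zero, zero_add, one_mul] at h3
        refine ⟨(T 0).natDegree, Finset.mem_range.mpr (by omega), ?_⟩
        rw [Finset.mem_image]
        refine ⟨(T 0, fun i => T (Fin.succ i)), ?_, ?_⟩
        · rw [Finset.mem_product]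
          refine ⟨hs₁ _ _ (h1 0).1 rfl (h1 0).2, hs₂ _ _ _ ⟨fun i => h1 _, ?_, ?_⟩⟩
          · simp only
            omega
          · simp only
            omega
        · funext i
          refine Fin.cases ?_ (fun j => ?_) i
          · simp
          · simp
      · by_cases hL : L ≤ m
        · have hK : K (Fintype.card F) (k + 1) L m =
              ∑ a ∈ range (L + 1), cc (Fintype.card F) a * K (Fintype.card F) k (L - a) (m - L) := by
            simp [K, hL]
          rw [hK]
          refine le_trans Finset.card_biUnion_le (Finset.sum_le_sum fun a _ => ?_)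
          refine le_trans Finset.card_image_le ?_
          rw [Finset.card_product]
          exact Nat.mul_le_mul (hs₁' a) (hs₂' _ _)
        · exact absurd hLm hL
    · refine ⟨∅, ?_, by simp⟩
      rintro T ⟨_, h2, h3⟩
      exfalso
      apply hLm
      rw [← h2, ← h3]
      apply Finset.sum_le_sum
      intro i _
      nlinarith [Nat.zero_le ((i : ℕ) * (T i).natDegree)]

/-- All tuples of weighted degree `n ≥ 1` and length `k + 1`: there are at most `q ^ n`. -/
lemma tup_total (k n : ℕ) (hn : 1 ≤ n) : ∃ s : Finset (Fin (k + 1) → F[X]),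
    (∀ T : Fin (k + 1) → F[X], (∀ i, (T i).Monic ∧ (T i).coeff 0 ≠ 0) →
      ∑ i : Fin (k + 1), ((i : ℕ) + 1) * (T i).natDegree = n → T ∈ s) ∧ s.card ≤ Fintype.card F ^ n := by
  classical
  choose s hs hs' using tup_bound (F := F) (k + 1)
  refine ⟨(range (n + 1)).biUnion (fun L => s L n), ?_, ?_⟩
  · intro T h1 h2
    rw [Finset.mem_biUnion]
    refine ⟨∑ i, (T i).natDegree, Finset.mem_range.mpr ?_, hs _ _ T ⟨h1, rfl, h2⟩⟩
    have : ∑ i, (T i).natDegree ≤ n := by
      rw [← h2]
      apply Finset.sum_le_sum
      intro i _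
      nlinarith [Nat.zero_le ((i : ℕ) * (T i).natDegree)]
    omega
  · refine le_trans Finset.card_biUnion_le (le_trans (Finset.sum_le_sum fun L _ => hs' L n) ?_)
    exact K_total_le _ (by
      have := Fintype.one_lt_card (α := F)
      omega) k n hn

end Cfsg.Agent.Lib.GLCount
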