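import Mathlib
import Cfsg.Agent.Lib.GLCountPoly
import Cfsg.Agent.Lib.MatConj

/-!
# Conjugacy classes of `GL_n(F)` and the primary decomposition of `F[X]`-modules
-/

set_option autoImplicit false

namespace Cfsg.Agent.Lib.GLCount

open Polynomial Finset Module

universe u

variable {F : Type u} [Field F] {n : ℕ}

/-- The cyclic primary modules. -/
abbrev QQ (z : F[X] × ℕ) := F[X] ⧸ (Submodule.span F[X] {z.1 ^ z.2} : Submodule F[X] F[X])

/-- Admissible primary pairs. -/
def Good (z : F[X] × ℕ) : Prop := z.1.Monic ∧ Irreducible z.1 ∧ z.1.coeff 0 ≠ 0 ∧ 1 ≤ z.2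

/-- The module of a matrix. -/
abbrev MM (g : Matrix (Fin n) (Fin n) F) := AEval' (Matrix.toLin' g)

lemma exists_decomp_raw (g : Matrix (Fin n) (Fin n) F) :
    ∃ (ι : Type u) (_ : Fintype ι) (p : ι → F[X]) (_ : ∀ i, Irreducible (p i)) (e : ι → ℕ),
      Nonempty (MM g ≃ₗ[F[X]] ∀ i, F[X] ⧸ (Submodule.span F[X] {p i ^ e i} : Submodule F[X] F[X])) := by
  classical
  haveI : Module.Finite F (MM g) := Module.Finite.equiv (AEval'.of (Matrix.toLin' g))
  haveI : Module.Finite F[X] (MM g) := Module.Finite.of_restrictScalars_finite F F[X] (MM g)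
  have ht : Module.IsTorsion F[X] (MM g) :=
    Module.AEval.isTorsion_of_finiteDimensional F (Fin n → F) (Matrix.toLin' g)
  obtain ⟨ι, fι, p, hp, e, ⟨φ⟩⟩ := Module.equiv_directSum_of_isTorsion ht
  exact ⟨ι, fι, p, hp, e, ⟨φ.trans (DirectSum.linearEquivFunOnFintype _ _ _)⟩⟩

/-- Forgetting subsingleton factors of a product. -/
noncomputable def piRestrict {R : Type*} [Semiring R] {ι : Type*} (Q : ι → Type*) [∀ i, AddCommMonoid (Q i)]
    [∀ i, Module R (Q i)] (P : ι → Prop) (h : ∀ i, ¬ P i → Subsingleton (Q i)) :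
    (∀ i, Q i) ≃ₗ[R] ∀ i : {i // P i}, Q i := by
  classical
  exact {
    toFun := fun f i => f i
    map_add' := fun _ _ => rfl
    map_smul' := fun _ _ => rfl
    invFun := fun f i => if hi : P i then f ⟨i, hi⟩ else 0
    left_inv := by
      intro f
      funext i
      by_cases hi : P i
      · simp [hi]
      · haveI := h i hi
        exact Subsingleton.elim _ _
    right_inv := by
      intro f
      funext i
      simp [i.2] }

lemma no_X_dvd (g : GL (Fin n) F) (h : F[X])
    (ψ : MM g.val →ₗ[F[X]] F[X] ⧸ (Submodule.span F[X] {h} : Submodule F[X] F[X]))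
    (hψ : Function.Surjective ψ) (hX : X ∣ h) : False := by
  obtain ⟨y, hy⟩ := hψ (Submodule.Quotient.mk 1)
  set m : MM g.val := AEval'.of (Matrix.toLin' g.val) ((g⁻¹).val.mulVec ((AEval'.of (Matrix.toLin' g.val)).symm y)) with hm
  have h1 : (X : F[X]) • m = y := by
    rw [hm, AEval'.X_smul_of]
    simp only [Matrix.toLin'_apply, Matrix.mulVec_mulVec]
    rw [← Units.val_mul, mul_inv_cancel]
    simp
  obtain ⟨w, hw⟩ := Submodule.Quotient.mk_surjective _ (ψ m)
  have h2 : ψ y = (X : F[X]) • ψ m := by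
    rw [← h1, map_smul]
  rw [hy, ← hw, ← Submodule.Quotient.mk_smul, Submodule.Quotient.eq] at h2
  rw [Submodule.mem_span_singleton] at h2
  obtain ⟨a, ha⟩ := h2
  have h3 : (X : F[X]) ∣ 1 - (X : F[X]) • w := by
    rw [← ha, smul_eq_mul]
    exact Dvd.dvd.mul_left hX a
  rw [X_dvd_iff] at h3
  simp at h3

/-- The decomposition with good pairs. -/
theorem exists_decomp (g : GL (Fin n) F) :
    ∃ (ι : Type u) (_ : Fintype ι) (x : ι → F[X] × ℕ), (∀ i, Good (x i)) ∧
      Nonempty (MM g.val ≃ₗ[F[X]] ∀ i, QQ (x i)) := by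
  classical
  obtain ⟨ι, fι, p, hp, e, ⟨φ⟩⟩ := exists_decomp_raw g.val
  have hsub : ∀ i, ¬ (e i ≠ 0) → Subsingleton (F[X] ⧸ (Submodule.span F[X] {p i ^ e i} : Submodule F[X] F[X])) := by
    intro i hi
    have hi' : e i = 0 := by
      by_contra h
      exact hi h
    rw [hi', pow_zero]
    have : (Submodule.span F[X] {(1 : F[X])} : Submodule F[X] F[X]) = ⊤ := Ideal.span_singleton_one
    rw [this]
    exact Submodule.Quotient.subsingleton_iff.mpr rfl
  let φ₁ := φ.trans (piRestrict (R := F[X]) _ (fun i => e i ≠ 0) hsub)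
  set c : {i // e i ≠ 0} → F[X] := fun i => C (p i).leadingCoeff⁻¹ with hc
  have hcu : ∀ i, IsUnit (c i) := by
    intro i
    apply Polynomial.isUnit_C.mpr
    apply IsUnit.mk0
    exact inv_ne_zero (leadingCoeff_ne_zero.mpr (hp i).ne_zero)
  let x : {i // e i ≠ 0} → F[X] × ℕ := fun i => (p i * c i, e i)
  have hspan : ∀ i : {i // e i ≠ 0}, (Submodule.span F[X] {p i ^ e i} : Submodule F[X] F[X]) = Submodule.span F[X] {(x i).1 ^ (x i).2} := by
    intro i
    apply Ideal.span_singleton_eq_span_singleton.mpr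
    exact Associated.pow_pow (associated_mul_unit_right _ _ (hcu i))
  let φ₂ : MM g.val ≃ₗ[F[X]] ∀ i, QQ (x i) :=
    φ₁.trans (LinearEquiv.piCongrRight (fun i => Submodule.quotEquivOfEq _ _ (hspan i)))
  refine ⟨{i // e i ≠ 0}, inferInstance, x, ?_, ⟨φ₂⟩⟩
  intro i
  refine ⟨?_, ?_, ?_, Nat.one_le_iff_ne_zero.mpr i.2⟩
  · exact Polynomial.monic_mul_leadingCoeff_inv (hp i).ne_zero
  · exact (irreducible_mul_isUnit (hcu i)).mpr (hp i)
  · have h0 : (p i).coeff 0 ≠ 0 := by
      intro h0
      have hX : (X : F[X]) ∣ p i ^ e i := dvd_pow (X_dvd_iff.mpr h0) i.2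
      let ψ : MM g.val →ₗ[F[X]] F[X] ⧸ (Submodule.span F[X] {p i ^ e i} : Submodule F[X] F[X]) :=
        (LinearMap.proj (R := F[X]) (φ := fun i : ι => F[X] ⧸ (Submodule.span F[X] {p i ^ e i} : Submodule F[X] F[X])) (i : ι)).comp (φ : MM g.val →ₗ[F[X]] _)
      refine no_X_dvd g _ ψ ?_ hX
      intro y
      refine ⟨φ.symm (Function.update 0 (i : ι) y), ?_⟩
      simp [ψ]
    show (p i * c i).coeff 0 ≠ 0
    rw [Polynomial.mul_coeff_zero]
    apply mul_ne_zero h0
    simp only [hc, coeff_C_zero]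
    exact inv_ne_zero (leadingCoeff_ne_zero.mpr (hp i).ne_zero)

lemma finrank_QQ (z : F[X] × ℕ) : finrank F (QQ z) = z.2 * z.1.natDegree := by
  have : finrank F (QQ z) = (z.1 ^ z.2).natDegree := finrank_quotient_span_eq_natDegree
  rw [this, natDegree_pow]

lemma finite_QQ (z : F[X] × ℕ) (hz : Good z) : Module.Finite F (QQ z) := by
  have hm : (z.1 ^ z.2).Monic := hz.1.pow _
  exact hm.finite_quotient

/-- The dimension count. -/
lemma sum_eq (g : Matrix (Fin n) (Fin n) F) {ι : Type u} [Fintype ι] (x : ι → F[X] × ℕ) (hx : ∀ i, Good (x i))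
    (φ : MM g ≃ₗ[F[X]] ∀ i, QQ (x i)) : ∑ i, (x i).2 * (x i).1.natDegree = n := by
  haveI : ∀ i, Module.Finite F (QQ (x i)) := fun i => finite_QQ _ (hx i)
  have h1 : finrank F (MM g) = n := by
    rw [← (AEval'.of (Matrix.toLin' g)).finrank_eq]
    simp
  have h2 := (φ.restrictScalars F).finrank_eq
  rw [h1, Module.finrank_pi_fintype] at h2
  rw [h2]
  exact Finset.sum_congr rfl (fun i _ => (finrank_QQ _).symm)

/-- The invariant of an element. -/
def HasInv (g : GL (Fin n) F) (T : Fin n → F[X]) : Prop :=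
  ∃ (ι : Type u) (_ : Fintype ι) (x : ι → F[X] × ℕ), (∀ i, Good (x i)) ∧
    Nonempty (MM g.val ≃ₗ[F[X]] ∀ i, QQ (x i)) ∧
      ∀ j : Fin n, T j = ∏ i ∈ univ.filter (fun i => (x i).2 = (j : ℕ) + 1), (x i).1

lemma exponent_le {ι : Type u} [Fintype ι] (x : ι → F[X] × ℕ) (hx : ∀ i, Good (x i))
    (hs : ∑ i, (x i).2 * (x i).1.natDegree = n) (i : ι) : (x i).2 ≤ n := by
  classical
  have h1 : (x i).2 * (x i).1.natDegree ≤ n := by
    rw [← hs]
    exact Finset.single_le_sum (f := fun i => (x i).2 * (x i).1.natDegree) (fun _ _ => Nat.zero_le _) (Finset.mem_univ i)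
  have h2 : 0 < (x i).1.natDegree := (hx i).2.1.natDegree_pos
  nlinarith

/-- Every element has an invariant. -/
theorem exists_inv (g : GL (Fin n) F) : ∃ T : Fin n → F[X], HasInv g T ∧ (∀ j, (T j).Monic ∧ (T j).coeff 0 ≠ 0) ∧
    ∑ j : Fin n, ((j : ℕ) + 1) * (T j).natDegree = n := by
  classical
  obtain ⟨ι, fι, x, hx, ⟨φ⟩⟩ := exists_decomp g
  have hs := sum_eq g.val x hx φ
  set T : Fin n → F[X] := fun j => ∏ i ∈ univ.filter (fun i => (x i).2 = (j : ℕ) + 1), (x i).1 with hT
  refine ⟨T, ⟨ι, fι, x, hx, ⟨φ⟩, fun j => rfl⟩, ?_, ?_⟩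
  · intro j
    constructor
    · exact monic_prod_of_monic _ _ (fun i _ => (hx i).1)
    · rw [Polynomial.coeff_zero_eq_eval_zero, hT]
      simp only [eval_prod]
      rw [Finset.prod_ne_zero_iff]
      intro i _
      rw [← Polynomial.coeff_zero_eq_eval_zero]
      exact (hx i).2.2.1
  · have h1 : ∀ j : Fin n, ((j : ℕ) + 1) * (T j).natDegree =
        ∑ i, if (x i).2 = (j : ℕ) + 1 then (x i).2 * (x i).1.natDegree else 0 := by
      intro j
      rw [← Finset.sum_filter, hT]
      simp only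
      rw [natDegree_prod_of_monic _ _ (fun i _ => (hx i).1), Finset.mul_sum]
      apply Finset.sum_congr rfl
      intro i hi
      rw [(Finset.mem_filter.mp hi).2]
    rw [Finset.sum_congr rfl (fun j _ => h1 j), Finset.sum_comm]
    refine Eq.trans ?_ hs
    apply Finset.sum_congr rfl
    intro i _
    have h2 : 1 ≤ (x i).2 := (hx i).2.2.2
    have h3 := exponent_le x hx hs i
    have hlt : (x i).2 - 1 < n := by omega
    have h4 : ∀ j : Fin n, (x i).2 = (j : ℕ) + 1 ↔ j = ⟨(x i).2 - 1, hlt⟩ := by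
      intro j
      constructor
      · intro h5
        apply Fin.ext
        simp only
        omega
      · intro h5
        rw [h5]
        simp only
        omega
    simp only [h4]
    simp

/-- A bijection from equal multisets. -/
lemma exists_equiv_of_map_eq {α β γ : Type*} [Fintype α] [Fintype β] [DecidableEq γ] (x : α → γ) (y : β → γ)
    (h : (univ : Finset α).val.map x = (univ : Finset β).val.map y) : ∃ σ : α ≃ β, ∀ a, y (σ a) = x a := by
  classical
  have h1 : ∀ c : γ, Nonempty ({a // x a = c} ≃ {b // y b = c}) := by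
    intro c
    apply Fintype.card_eq.mp
    rw [Fintype.card_subtype, Fintype.card_subtype]
    have h2 := congrArg (Multiset.count c) h
    rw [Multiset.count_map, Multiset.count_map] at h2
    have e1 : (univ.filter fun a => x a = c).card = Multiset.card ((univ : Finset α).val.filter fun a => c = x a) := by
      rw [Finset.card_def, Finset.filter_val]
      congr 2
      funext a
      simp [eq_comm]
    have e2 : (univ.filter fun b => y b = c).card = Multiset.card ((univ : Finset β).val.filter fun a => c = y a) := by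
      rw [Finset.card_def, Finset.filter_val]
      congr 2
      funext a
      simp [eq_comm]
    rw [e1, e2, h2]
  let e := fun c => (h1 c).some
  exact ⟨Equiv.ofFiberEquiv e, Equiv.ofFiberEquiv_map e⟩

/-- Multisets of monic irreducibles are determined by their products. -/
lemma multiset_eq_of_prod_eq (s t : Multiset F[X]) (hs : ∀ f ∈ s, f.Monic ∧ Irreducible f)
    (ht : ∀ f ∈ t, f.Monic ∧ Irreducible f) (h : s.prod = t.prod) : s = t := by
  have h1 := UniqueFactorizationMonoid.factors_unique (fun x hx => (hs x hx).2) (fun x hx => (ht x hx).2) (h ▸ Associated.refl _)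
  rw [← Multiset.rel_eq]
  refine h1.mono ?_
  intro a ha b hb hab
  exact eq_of_monic_of_associated (hs a ha).1 (ht b hb).1 hab

/-- The family of primary pairs is determined by the invariant. -/
lemma multiset_eq {ι ι' : Type u} [Fintype ι] [Fintype ι'] (x : ι → F[X] × ℕ) (x' : ι' → F[X] × ℕ)
    (hx : ∀ i, Good (x i)) (hx' : ∀ i, Good (x' i))
    (hs : ∑ i, (x i).2 * (x i).1.natDegree = n) (hs' : ∑ i, (x' i).2 * (x' i).1.natDegree = n)
    (h : ∀ j : Fin n, ∏ i ∈ univ.filter (fun i => (x i).2 = (j : ℕ) + 1), (x i).1 =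
      ∏ i ∈ univ.filter (fun i => (x' i).2 = (j : ℕ) + 1), (x' i).1) :
    (univ : Finset ι).val.map x = (univ : Finset ι').val.map x' := by
  classical
  have key : ∀ {κ : Type u} [Fintype κ] (y : κ → F[X] × ℕ) (e : ℕ),
      ((univ : Finset κ).val.map y).filter (fun a => a.2 = e) =
        (((univ.filter (fun i => (y i).2 = e)).val.map (fun i => (y i).1))).map (fun π => (π, e)) := by
    intro κ _ y e
    rw [Multiset.filter_map, Multiset.map_map, Finset.filter_val]
    apply Multiset.map_congr rfl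
    intro i hi
    have hi2 : (y i).2 = e := by
      have := (Multiset.mem_filter.mp hi).2
      exact this
    simp only [Function.comp_apply]
    rw [← hi2]
  have hfil : ∀ e : ℕ, ((univ : Finset ι).val.map x).filter (fun a => a.2 = e) =
      ((univ : Finset ι').val.map x').filter (fun a => a.2 = e) := by
    intro e
    rw [key x e, key x' e]
    by_cases he : 1 ≤ e ∧ e ≤ n
    · obtain ⟨j, hj⟩ : ∃ j : Fin n, e = (j : ℕ) + 1 := ⟨⟨e - 1, by omega⟩, by simp only; omega⟩
      subst hj
      congr 1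
      apply multiset_eq_of_prod_eq
      · intro f hf
        obtain ⟨i, _, rfl⟩ := Multiset.mem_map.mp hf
        exact ⟨(hx i).1, (hx i).2.1⟩
      · intro f hf
        obtain ⟨i, _, rfl⟩ := Multiset.mem_map.mp hf
        exact ⟨(hx' i).1, (hx' i).2.1⟩
      · exact h j
    · have e1 : univ.filter (fun i => (x i).2 = e) = ∅ := by
        apply Finset.filter_eq_empty_iff.mpr
        intro i _ hi
        apply he
        have := exponent_le x hx hs i
        have h1 := (hx i).2.2.2
        omega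
      have e2 : univ.filter (fun i => (x' i).2 = e) = ∅ := by
        apply Finset.filter_eq_empty_iff.mpr
        intro i _ hi
        apply he
        have := exponent_le x' hx' hs' i
        have h1 := (hx' i).2.2.2
        omega
      rw [e1, e2]
      simp
  apply Multiset.ext.mpr
  intro a
  have h1 := congrArg (Multiset.count a) (hfil a.2)
  rw [Multiset.count_filter, Multiset.count_filter] at h1
  simpa using h1

/-- Isomorphic modules give conjugate elements. -/
lemma isConj_of_equiv (g g' : GL (Fin n) F) (Φ : MM g.val ≃ₗ[F[X]] MM g'.val) : IsConj g g' := by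
  let e : (Fin n → F) ≃ₗ[F] (Fin n → F) :=
    ((AEval'.of (Matrix.toLin' g.val)).trans (Φ.restrictScalars F)).trans (AEval'.of (Matrix.toLin' g'.val)).symm
  have he : ∀ v, e ((g : Matrix (Fin n) (Fin n) F).mulVec v) = (g' : Matrix (Fin n) (Fin n) F).mulVec (e v) := by
    intro v
    have h1 : AEval'.of (Matrix.toLin' g.val) ((g : Matrix (Fin n) (Fin n) F).mulVec v) =
        (X : F[X]) • AEval'.of (Matrix.toLin' g.val) v := by
      rw [AEval'.X_smul_of, Matrix.toLin'_apply]
    show (AEval'.of (Matrix.toLin' g'.val)).symm (Φ (AEval'.of (Matrix.toLin' g.val) ((g : Matrix (Fin n) (Fin n) F).mulVec v))) =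
      (g' : Matrix (Fin n) (Fin n) F).mulVec ((AEval'.of (Matrix.toLin' g'.val)).symm (Φ (AEval'.of (Matrix.toLin' g.val) v)))
    rw [h1, map_smul, AEval'.of_symm_X_smul, Matrix.toLin'_apply]
  obtain ⟨P, hP⟩ := Cfsg.Agent.Lib.MatConj.exists_conj_of_equiv e g g' he
  rw [isConj_iff]
  exact ⟨P⁻¹, by rw [inv_inv]; exact hP⟩

/-- Elements with the same invariant are conjugate. -/
theorem isConj_of_hasInv (g g' : GL (Fin n) F) (T : Fin n → F[X]) (h : HasInv g T) (h' : HasInv g' T) : IsConj g g' := by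
  classical
  obtain ⟨ι, fι, x, hx, ⟨φ⟩, hT⟩ := h
  obtain ⟨ι', fι', x', hx', ⟨φ'⟩, hT'⟩ := h'
  have hm := multiset_eq x x' hx hx' (sum_eq g.val x hx φ) (sum_eq g'.val x' hx' φ')
    (fun j => (hT j).symm.trans (hT' j))
  obtain ⟨σ, hσ⟩ := exists_equiv_of_map_eq x x' hm
  have hxx : x = fun i => x' (σ i) := funext fun i => (hσ i).symm
  subst hxx
  exact isConj_of_equiv g g' (φ.trans ((LinearEquiv.piCongrLeft F[X] (fun i' => QQ (x' i')) σ).trans φ'.symm))

variable [Fintype F]

/-- The upper bound. -/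
theorem card_classes_le (hn : 1 ≤ n) : Nat.card (ConjClasses (GL (Fin n) F)) ≤ Fintype.card F ^ n := by
  classical
  obtain ⟨k, rfl⟩ : ∃ k, n = k + 1 := ⟨n - 1, by omega⟩
  obtain ⟨s, hs, hcard⟩ := tup_total (F := F) k (k + 1) hn
  choose T hT hT1 hT2 using exists_inv (F := F) (n := k + 1)
  choose rep hrep using (ConjClasses.exists_rep : ∀ c : ConjClasses (GL (Fin (k + 1)) F), ∃ a, ConjClasses.mk a = c)
  haveI : Fintype (ConjClasses (GL (Fin (k + 1)) F)) := Fintype.ofFinite _
  rw [Nat.card_eq_fintype_card, ← Finset.card_univ]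
  refine le_trans (Finset.card_le_card_of_injOn (fun c => T (rep c)) ?_ ?_) hcard
  · intro c _
    exact hs _ (hT1 _) (hT2 _)
  · intro c _ c' _ hcc
    have h1 : IsConj (rep c) (rep c') := by
      apply isConj_of_hasInv _ _ (T (rep c)) (hT _)
      have : T (rep c) = T (rep c') := hcc
      rw [this]
      exact hT _
    rw [← hrep c, ← hrep c']
    exact ConjClasses.mk_eq_mk_iff_isConj.mpr h1

omit [Fintype F] in
/-- Every monic polynomial is a characteristic polynomial. -/
lemma exists_charpoly (f : F[X]) (hf : f.Monic) : ∃ A : Matrix (Fin f.natDegree) (Fin f.natDegree) F, A.charpoly = f := by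
  refine ⟨Algebra.leftMulMatrix (AdjoinRoot.powerBasis hf.ne_zero).basis (AdjoinRoot.powerBasis hf.ne_zero).gen, ?_⟩
  have h1 := charpoly_leftMulMatrix (AdjoinRoot.powerBasis hf.ne_zero)
  refine h1.trans ?_
  rw [AdjoinRoot.powerBasis_gen, AdjoinRoot.minpoly_root hf.ne_zero, hf.leadingCoeff]
  simp

omit [Fintype F] in
lemma exists_charpoly' (f : F[X]) (hf : f.Monic) (m : ℕ) (hm : f.natDegree = m) :
    ∃ A : Matrix (Fin m) (Fin m) F, A.charpoly = f := by
  subst hm
  exact exists_charpoly f hf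

/-- The lower bound. -/
theorem card_classes_ge (hn : 1 ≤ n) :
    Fintype.card F ^ n - Fintype.card F ^ (n - 1) ≤ Nat.card (ConjClasses (GL (Fin n) F)) := by
  classical
  obtain ⟨k, rfl⟩ : ∃ k, n = k + 1 := ⟨n - 1, by omega⟩
  simp only [Nat.add_sub_cancel]
  rw [← card_vecSet (F := F) k]
  have hex : ∀ v : Fin (k + 1) → F, v ∈ vecSet F k → ∃ g : GL (Fin (k + 1)) F, g.val.charpoly = polyOfVec v := by
    intro v hv
    obtain ⟨A, hA⟩ := exists_charpoly' (polyOfVec v) (polyOfVec_monic v) _ (polyOfVec_natDegree v)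
    have hdet : A.det ≠ 0 := by
      rw [Matrix.det_eq_sign_charpoly_coeff, hA]
      have h0 : (polyOfVec v).coeff 0 = v 0 := polyOfVec_coeff v 0
      rw [h0]
      exact mul_ne_zero (pow_ne_zero _ (by simp)) (mem_vecSet.mp hv)
    exact ⟨Matrix.GeneralLinearGroup.mkOfDetNeZero A hdet, hA⟩
  choose g hg using hex
  haveI : Fintype (ConjClasses (GL (Fin (k + 1)) F)) := Fintype.ofFinite _
  rw [Nat.card_eq_fintype_card, ← Finset.card_attach, ← Finset.card_univ]
  refine Finset.card_le_card_of_injOn (fun v => ConjClasses.mk (g v.1 v.2)) (fun _ _ => Finset.mem_univ _) ?_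
  intro v _ w _ hvw
  have h1 : IsConj (g v.1 v.2) (g w.1 w.2) := ConjClasses.mk_eq_mk_iff_isConj.mp hvw
  obtain ⟨c, hc⟩ := isConj_iff.mp h1
  have h2 : (g v.1 v.2).val.charpoly = (g w.1 w.2).val.charpoly := by
    rw [← hc, Units.val_mul, Units.val_mul, Matrix.coe_units_inv, Matrix.charpoly_units_conj]
  rw [hg, hg] at h2
  apply Subtype.ext
  funext i
  rw [← polyOfVec_coeff v.1 i, ← polyOfVec_coeff w.1 i, h2]

end Cfsg.Agent.Lib.GLCount
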