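import Mathlib
import Cfsg.Agent.Lib.GLCountMod

/-!
# Determinants of polynomial actions on primary modules
-/

set_option autoImplicit false
set_option linter.unusedSectionVars false

namespace Cfsg.Agent.Lib.SLCount

open Polynomial Finset Module
open Cfsg.Agent.Lib.GLCount

universe u v

variable {F : Type u} [Field F]

section detpi

/-- Determinants of coordinatewise maps on a dependent product. -/
theorem det_pi_dep (ι : Type u) [Finite ι] : ∀ (Q : ι → Type v) (_ : ∀ i, AddCommGroup (Q i)) (_ : ∀ i, Module F (Q i))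
    (_ : ∀ i, Module.Finite F (Q i)) (f : ∀ i, Q i →ₗ[F] Q i) (_ : Fintype ι),
    LinearMap.det (LinearMap.pi fun i => (f i).comp (LinearMap.proj i)) = ∏ i, LinearMap.det (f i) := by
  revert ι
  intro ι hι
  refine Finite.induction_empty_option (P := fun ι : Type u => ∀ (Q : ι → Type v) (_ : ∀ i, AddCommGroup (Q i))
    (_ : ∀ i, Module F (Q i)) (_ : ∀ i, Module.Finite F (Q i)) (f : ∀ i, Q i →ₗ[F] Q i) (_ : Fintype ι),
    LinearMap.det (LinearMap.pi fun i => (f i).comp (LinearMap.proj i)) = ∏ i, LinearMap.det (f i)) ?_ ?_ ?_ ι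
  · intro α β e h Q _ _ _ f fβ
    classical
    letI fα : Fintype α := Fintype.ofEquiv β e.symm
    have h1 := h (fun a => Q (e a)) (fun a => inferInstance) (fun a => inferInstance)
      (fun a => inferInstance) (fun a => f (e a)) fα
    have h2 : (∏ a : α, LinearMap.det (f (e a))) = ∏ b : β, LinearMap.det (f b) :=
      Equiv.prod_comp e (fun b => LinearMap.det (f b))
    rw [← h2, ← h1]
    let E : (∀ a, Q (e a)) ≃ₗ[F] (∀ b, Q b) := LinearEquiv.piCongrLeft F Q e
    rw [← LinearMap.det_conj (LinearMap.pi fun a => (f (e a)).comp (LinearMap.proj a)) E]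
    congr 1
    have hE : ∀ (y : ∀ a, Q (e a)) (a : α), E y (e a) = y a := by
      intro y a
      exact Equiv.piCongrLeft_apply_apply Q e y a
    apply LinearMap.ext
    intro v
    obtain ⟨y, rfl⟩ := E.surjective v
    simp only [LinearMap.comp_apply, LinearMap.pi_apply, LinearEquiv.coe_coe, LinearEquiv.symm_apply_apply]
    funext b'
    obtain ⟨a, rfl⟩ := e.surjective b'
    simp only [LinearMap.pi_apply, LinearMap.comp_apply, LinearMap.proj_apply]
    rw [hE, hE]
    simp
  · intro Q _ _ _ f _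
    have : Subsingleton (∀ i, Q i) := inferInstance
    rw [LinearMap.det_eq_one_of_subsingleton]
    simp
  · intro α fα h Q _ _ _ f fo
    classical
    have h1 := h (fun a => Q (some a)) (fun a => inferInstance) (fun a => inferInstance)
      (fun a => inferInstance) (fun a => f (some a)) fα
    have e2 : ∏ i : Option α, LinearMap.det (f i) = LinearMap.det (f none) * ∏ a : α, LinearMap.det (f (some a)) := by
      convert Fintype.prod_option (fun i : Option α => LinearMap.det (f i))
    rw [e2, ← h1]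
    let E : (∀ i, Q i) ≃ₗ[F] Q none × (∀ a, Q (some a)) := LinearEquiv.piOptionEquivProd F
    rw [← LinearMap.det_prodMap, ← LinearMap.det_conj (LinearMap.pi fun i => (f i).comp (LinearMap.proj i)) E]
    congr 1

end detpi

section act

variable (M : Type*) [AddCommGroup M] [Module F M] [Module F[X] M] [IsScalarTower F F[X] M]

/-- Multiplication by a polynomial, as an `F`-linear map. -/
noncomputable def act (p : F[X]) : M →ₗ[F] M := (LinearMap.lsmul F[X] M p).restrictScalars F

@[simp] lemma act_apply (p : F[X]) (m : M) : act M p m = p • m := rfl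

variable {M}

lemma det_act_equiv {M' : Type*} [AddCommGroup M'] [Module F M'] [Module F[X] M'] [IsScalarTower F F[X] M']
    (φ : M ≃ₗ[F[X]] M') (p : F[X]) : LinearMap.det (act M' p) = LinearMap.det (act M p) := by
  rw [← LinearMap.det_conj (act M p) (φ.restrictScalars F)]
  congr 1
  apply LinearMap.ext
  intro m
  obtain ⟨n, rfl⟩ := φ.surjective m
  simp

/-- The determinant is multiplicative in exact sequences. -/
lemma det_act_exact {N P : Type*} [AddCommGroup N] [Module F N] [Module F[X] N] [IsScalarTower F F[X] N]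
    [AddCommGroup P] [Module F P] [Module F[X] P] [IsScalarTower F F[X] P]
    [Module.Finite F M]
    (α : N →ₗ[F[X]] M) (β : M →ₗ[F[X]] P) (hα : Function.Injective α) (hβ : Function.Surjective β)
    (h : ∀ m, β m = 0 ↔ m ∈ LinearMap.range α) (p : F[X]) :
    LinearMap.det (act M p) = LinearMap.det (act N p) * LinearMap.det (act P p) := by
  let W : Submodule F M := (LinearMap.range α).restrictScalars F
  have he : W ≤ W.comap (act M p) := by
    rintro _ ⟨n, rfl⟩
    exact ⟨p • n, by simp⟩
  have key := LinearMap.det_eq_det_mul_det W (act M p) he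
  rw [key]
  congr 1
  · let E : N ≃ₗ[F] W := LinearEquiv.ofBijective
      { toFun := fun n => ⟨α n, ⟨n, rfl⟩⟩
        map_add' := fun a b => Subtype.ext (by simp)
        map_smul' := fun c a => Subtype.ext (by
          have : α (c • a) = α ((algebraMap F F[X] c) • a) := by
            rw [algebraMap_smul]
          simp only [RingHom.id_apply]
          show α (c • a) = c • α a
          rw [this, map_smul, algebraMap_smul]) }
      ⟨fun a b hab => hα (congrArg Subtype.val hab), fun y => by
        obtain ⟨_, n, rfl⟩ := y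
        exact ⟨n, rfl⟩⟩
    rw [← LinearMap.det_conj (act N p) E]
    congr 1
    apply LinearMap.ext
    intro y
    obtain ⟨n, rfl⟩ := E.surjective y
    apply Subtype.ext
    simp only [LinearMap.comp_apply, LinearEquiv.coe_coe, LinearEquiv.symm_apply_apply]
    show p • α n = α (p • n)
    rw [map_smul]
  · let βF : M →ₗ[F] P := β.restrictScalars F
    have hker : W ≤ LinearMap.ker βF := by
      rintro m hm
      exact (h m).2 hm
    let q : (M ⧸ W) →ₗ[F] P := W.liftQ βF hker
    have hq : Function.Bijective q := by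
      constructor
      · rw [← LinearMap.ker_eq_bot, Submodule.ker_liftQ_eq_bot']
        apply le_antisymm
        · exact hker
        · intro m hm
          exact (h m).1 hm
      · intro y
        obtain ⟨m, rfl⟩ := hβ y
        exact ⟨Submodule.Quotient.mk m, rfl⟩
    let E : (M ⧸ W) ≃ₗ[F] P := LinearEquiv.ofBijective q hq
    rw [← LinearMap.det_conj (W.mapQ W (act M p) he) E]
    congr 1
    apply LinearMap.ext
    intro y
    obtain ⟨z, rfl⟩ := E.surjective y
    obtain ⟨m, rfl⟩ := Submodule.Quotient.mk_surjective _ z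
    simp only [LinearMap.comp_apply, LinearEquiv.coe_coe, LinearEquiv.symm_apply_apply]
    show β (p • m) = p • β m
    rw [map_smul]

end act

section cyclic

/-- The cyclic module of a polynomial. -/
abbrev Qf (f : F[X]) := F[X] ⧸ (Submodule.span F[X] {f} : Submodule F[X] F[X])

lemma Qf_finite {f : F[X]} (hf : f.Monic) : Module.Finite F (Qf f) := hf.finite_quotient

lemma Qf_mk_eq_zero {f a : F[X]} : (Submodule.Quotient.mk a : Qf f) = 0 ↔ f ∣ a := by
  rw [Submodule.Quotient.mk_eq_zero, Submodule.mem_span_singleton]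
  constructor
  · rintro ⟨c, rfl⟩
    exact Dvd.intro_left c rfl
  · rintro ⟨c, rfl⟩
    exact ⟨c, by rw [smul_eq_mul, mul_comm]⟩

/-- Multiplicativity in the modulus. -/
lemma det_act_Qf_mul {f₁ f₂ : F[X]} (h₁ : f₁.Monic) (h₂ : f₂.Monic) (p : F[X]) :
    LinearMap.det (act (Qf (f₁ * f₂)) p) = LinearMap.det (act (Qf f₂) p) * LinearMap.det (act (Qf f₁) p) := by
  haveI : Module.Finite F (Qf (f₁ * f₂)) := Qf_finite (h₁.mul h₂)
  let α : Qf f₂ →ₗ[F[X]] Qf (f₁ * f₂) :=
    Submodule.mapQ _ _ (LinearMap.lsmul F[X] F[X] f₁) (by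
      intro a ha
      rw [Submodule.mem_span_singleton] at ha
      obtain ⟨c, rfl⟩ := ha
      rw [Submodule.mem_comap, Submodule.mem_span_singleton]
      exact ⟨c, by simp only [LinearMap.lsmul_apply, smul_eq_mul]; ring⟩)
  let β : Qf (f₁ * f₂) →ₗ[F[X]] Qf f₁ :=
    Submodule.mapQ _ _ LinearMap.id (by
      intro a ha
      rw [Submodule.mem_span_singleton] at ha
      obtain ⟨c, rfl⟩ := ha
      rw [Submodule.mem_comap, Submodule.mem_span_singleton]
      exact ⟨c * f₂, by simp only [LinearMap.id_apply, smul_eq_mul]; ring⟩)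
  refine det_act_exact α β ?_ ?_ ?_ p
  · rw [← LinearMap.ker_eq_bot, LinearMap.ker_eq_bot']
    intro m hm
    obtain ⟨a, rfl⟩ := Submodule.Quotient.mk_surjective _ m
    have h3 : (Submodule.Quotient.mk (f₁ * a) : Qf (f₁ * f₂)) = 0 := hm
    rw [Qf_mk_eq_zero] at h3
    rw [Qf_mk_eq_zero]
    exact (mul_dvd_mul_iff_left h₁.ne_zero).mp h3
  · intro y
    obtain ⟨a, rfl⟩ := Submodule.Quotient.mk_surjective _ y
    exact ⟨Submodule.Quotient.mk a, rfl⟩
  · intro m
    obtain ⟨a, rfl⟩ := Submodule.Quotient.mk_surjective _ m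
    constructor
    · intro h
      have h3 : (Submodule.Quotient.mk a : Qf f₁) = 0 := h
      rw [Qf_mk_eq_zero] at h3
      obtain ⟨c, rfl⟩ := h3
      exact ⟨Submodule.Quotient.mk c, rfl⟩
    · rintro ⟨y, hy⟩
      obtain ⟨c, rfl⟩ := Submodule.Quotient.mk_surjective _ y
      have h3 : (Submodule.Quotient.mk (f₁ * c) : Qf (f₁ * f₂)) = Submodule.Quotient.mk a := hy
      rw [Submodule.Quotient.eq] at h3
      rw [Submodule.mem_span_singleton] at h3
      obtain ⟨b, hb⟩ := h3
      have h4 : a = f₁ * (c - b * f₂) := by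
        rw [smul_eq_mul] at hb
        linear_combination hb
      show (Submodule.Quotient.mk a : Qf f₁) = 0
      rw [Qf_mk_eq_zero, h4]
      exact Dvd.intro _ rfl

lemma det_act_Qf_one (p : F[X]) : LinearMap.det (act (Qf (1 : F[X])) p) = 1 := by
  have h : (Submodule.span F[X] {(1 : F[X])} : Submodule F[X] F[X]) = ⊤ := Ideal.span_singleton_one
  haveI : Subsingleton (Qf (1 : F[X])) := by
    show Subsingleton (F[X] ⧸ (Submodule.span F[X] {(1 : F[X])} : Submodule F[X] F[X]))
    rw [h]
    exact Submodule.Quotient.subsingleton_iff.mpr rfl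
  exact LinearMap.det_eq_one_of_subsingleton _

/-- Powers of the modulus. -/
lemma det_act_Qf_pow {π : F[X]} (h : π.Monic) (e : ℕ) (p : F[X]) :
    LinearMap.det (act (Qf (π ^ e)) p) = LinearMap.det (act (Qf π) p) ^ e := by
  induction e with
  | zero =>
    simp only [pow_zero]
    exact det_act_Qf_one p
  | succ e ih =>
    rw [pow_succ, det_act_Qf_mul (h.pow e) h, ih, mul_comm, pow_succ]

/-- The action of one has determinant one. -/
lemma det_act_one (M : Type*) [AddCommGroup M] [Module F M] [Module F[X] M] [IsScalarTower F F[X] M] :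
    LinearMap.det (act M (1 : F[X])) = 1 := by
  have : act M (1 : F[X]) = LinearMap.id := by
    apply LinearMap.ext
    intro m
    simp
  rw [this, LinearMap.det_id]

/-- The action on an `AdjoinRoot`. -/
lemma act_eq_lmul (f p : F[X]) : (act (Qf f) p : Qf f →ₗ[F] Qf f) =
    (Algebra.lmul F (AdjoinRoot f) (AdjoinRoot.mk f p) : AdjoinRoot f →ₗ[F] AdjoinRoot f) := by
  apply LinearMap.ext
  intro m
  obtain ⟨a, rfl⟩ := Submodule.Quotient.mk_surjective _ m
  rfl

lemma det_act_X {f : F[X]} (hf : f.Monic) :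
    LinearMap.det (act (Qf f) (X : F[X])) = (-1) ^ f.natDegree * f.coeff 0 := by
  have h1 : LinearMap.det (act (Qf f) (X : F[X])) = Algebra.norm F (AdjoinRoot.root f) := by
    rw [act_eq_lmul, Algebra.norm_apply]
    rfl
  rw [h1]
  have h2 := Algebra.PowerBasis.norm_gen_eq_coeff_zero_minpoly (AdjoinRoot.powerBasis hf.ne_zero)
  rw [AdjoinRoot.powerBasis_gen, AdjoinRoot.powerBasis_dim, AdjoinRoot.minpoly_root hf.ne_zero,
    hf.leadingCoeff] at h2
  rw [h2]
  simp

lemma exists_det_act [Finite F] {π : F[X]} (hπ : Irreducible π) (c : F) :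
    ∃ p : F[X], LinearMap.det (act (Qf π) p) = c := by
  haveI : Fact (Irreducible π) := ⟨hπ⟩
  have hm : π ≠ 0 := hπ.ne_zero
  haveI : FiniteDimensional F (AdjoinRoot π) := (AdjoinRoot.powerBasis hm).finite
  haveI : Finite (AdjoinRoot π) := Module.finite_of_finite F
  obtain ⟨a, ha⟩ := FiniteField.norm_surjective F (AdjoinRoot π) c
  obtain ⟨p, rfl⟩ := AdjoinRoot.mk_surjective a
  refine ⟨p, ?_⟩
  rw [act_eq_lmul, ← ha, Algebra.norm_apply]
  rfl

end cyclic

section group

variable {n : ℕ}

lemma det_eq_det_act (g : Matrix (Fin n) (Fin n) F) : g.det = LinearMap.det (act (MM g) (X : F[X])) := by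
  rw [← LinearMap.det_toLin', ← LinearMap.det_conj (Matrix.toLin' g) (AEval'.of (Matrix.toLin' g))]
  congr 1
  apply LinearMap.ext
  intro m
  obtain ⟨v, rfl⟩ := (AEval'.of (Matrix.toLin' g)).surjective m
  simp only [LinearMap.comp_apply, LinearEquiv.coe_coe, LinearEquiv.symm_apply_apply, act_apply]
  rw [AEval'.X_smul_of]

/-- Acting coordinatewise on a product of primary modules. -/
noncomputable def piAct {ι : Type u} (Q : ι → Type u) [∀ i, AddCommGroup (Q i)] [∀ i, Module F[X] (Q i)] (p : ι → F[X]) :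
    (∀ i, Q i) →ₗ[F[X]] (∀ i, Q i) :=
  LinearMap.pi fun i => (LinearMap.lsmul F[X] (Q i) (p i)).comp (LinearMap.proj i)

lemma det_piAct [Finite F] {ι : Type u} [Fintype ι] (x : ι → F[X] × ℕ) (hx : ∀ i, Good (x i)) (p : ι → F[X]) :
    LinearMap.det ((piAct (fun i => QQ (x i)) p).restrictScalars F) =
      ∏ i, LinearMap.det (act (QQ (x i)) (p i)) := by
  have h := det_pi_dep (F := F) ι (fun i => QQ (x i)) (fun i => inferInstance) (fun i => inferInstance)
    (fun i => finite_QQ _ (hx i)) (fun i => act (QQ (x i)) (p i)) inferInstance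
  exact h

lemma det_act_QQ {z : F[X] × ℕ} (hz : Good z) (p : F[X]) :
    LinearMap.det (act (QQ z) p) = LinearMap.det (act (Qf z.1) p) ^ z.2 :=
  det_act_Qf_pow hz.1 z.2 p

lemma det_act_QQ_X {z : F[X] × ℕ} (hz : Good z) :
    LinearMap.det (act (QQ z) (X : F[X])) = ((-1) ^ z.1.natDegree * z.1.coeff 0) ^ z.2 := by
  rw [det_act_QQ hz, det_act_X hz.1]

/-- The determinant from a primary decomposition. -/
lemma det_of_decomp [Finite F] (g : GL (Fin n) F) {ι : Type u} [Fintype ι] (x : ι → F[X] × ℕ) (hx : ∀ i, Good (x i))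
    (φ : MM g.val ≃ₗ[F[X]] ∀ i, QQ (x i)) :
    g.val.det = ∏ i, ((-1) ^ (x i).1.natDegree * (x i).1.coeff 0) ^ (x i).2 := by
  haveI : ∀ i, Module.Finite F (QQ (x i)) := fun i => finite_QQ _ (hx i)
  rw [det_eq_det_act, ← det_act_equiv φ]
  have h := det_piAct x hx (fun _ => (X : F[X]))
  have e : act (∀ i, QQ (x i)) (X : F[X]) = (piAct (fun i => QQ (x i)) (fun _ => (X : F[X]))).restrictScalars F := by
    apply LinearMap.ext
    intro m
    rfl
  rw [e, h]
  exact Finset.prod_congr rfl fun i _ => det_act_QQ_X (hx i)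

/-- Commuting elements of prescribed determinant. -/
lemma exists_centralizer [Finite F] (g : GL (Fin n) F) {ι : Type u} [Fintype ι] (x : ι → F[X] × ℕ) (hx : ∀ i, Good (x i))
    (φ : MM g.val ≃ₗ[F[X]] ∀ i, QQ (x i)) (i₀ : ι) (c : Fˣ) :
    ∃ Z : GL (Fin n) F, Z * g = g * Z ∧ Matrix.GeneralLinearGroup.det Z = c ^ (x i₀).2 := by
  classical
  obtain ⟨p, hp⟩ := exists_det_act (hx i₀).2.1 (c : F)
  let u : ι → F[X] := fun i => if i = i₀ then p else 1
  let Zt := piAct (fun i => QQ (x i)) u
  let ZZ : MM g.val →ₗ[F[X]] MM g.val := φ.symm.toLinearMap ∘ₗ Zt ∘ₗ φ.toLinearMap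
  let of := AEval'.of (Matrix.toLin' g.val)
  let A : (Fin n → F) →ₗ[F] (Fin n → F) := of.symm.toLinearMap ∘ₗ (ZZ.restrictScalars F) ∘ₗ of.toLinearMap
  have hdet : LinearMap.det A = (c : F) ^ (x i₀).2 := by
    have h1 : LinearMap.det A = LinearMap.det (ZZ.restrictScalars F) :=
      LinearMap.det_conj (ZZ.restrictScalars F) of.symm
    have h2 : LinearMap.det (ZZ.restrictScalars F) = LinearMap.det (Zt.restrictScalars F) :=
      LinearMap.det_conj (Zt.restrictScalars F) (φ.symm.restrictScalars F)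
    rw [h1, h2, det_piAct x hx u, Finset.prod_eq_single i₀]
    · simp only [u, if_true]
      rw [det_act_QQ (hx i₀), hp]
    · intro i _ hi
      simp only [u, if_neg hi]
      exact det_act_one _
    · intro h
      exact absurd (Finset.mem_univ _) h
  have hne : (LinearMap.toMatrix' A).det ≠ 0 := by
    rw [LinearMap.det_toMatrix', hdet]
    exact pow_ne_zero _ c.ne_zero
  refine ⟨Matrix.GeneralLinearGroup.mkOfDetNeZero _ hne, ?_, ?_⟩
  · apply Units.ext
    show LinearMap.toMatrix' A * g.val = g.val * LinearMap.toMatrix' A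
    apply Matrix.toLin'.injective
    rw [Matrix.toLin'_mul, Matrix.toLin'_mul, Matrix.toLin'_toMatrix']
    apply LinearMap.ext
    intro v
    simp only [LinearMap.comp_apply]
    show of.symm (ZZ (of (Matrix.toLin' g.val v))) = Matrix.toLin' g.val (of.symm (ZZ (of v)))
    have e1 : of (Matrix.toLin' g.val v) = (X : F[X]) • of v := (AEval'.X_smul_of _ _).symm
    rw [e1, map_smul, AEval'.of_symm_X_smul]
  · apply Units.ext
    show (LinearMap.toMatrix' A).det = _
    rw [LinearMap.det_toMatrix', hdet]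
    simp

/-- The determinant in terms of the invariant. -/
theorem det_of_hasInv [Finite F] (g : GL (Fin n) F) (T : Fin n → F[X]) (h : HasInv g T) :
    g.val.det = (-1) ^ n * ∏ j : Fin n, (T j).coeff 0 ^ ((j : ℕ) + 1) := by
  classical
  obtain ⟨ι, fι, x, hx, ⟨φ⟩, hT⟩ := h
  have hs := sum_eq g.val x hx φ
  rw [det_of_decomp g x hx φ]
  have h1 : ∀ i, ((-1 : F) ^ (x i).1.natDegree * (x i).1.coeff 0) ^ (x i).2 =
      (-1) ^ ((x i).2 * (x i).1.natDegree) * (x i).1.coeff 0 ^ (x i).2 := by
    intro i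
    rw [mul_pow, ← pow_mul, mul_comm (x i).1.natDegree]
  rw [Finset.prod_congr rfl (fun i _ => h1 i), Finset.prod_mul_distrib, Finset.prod_pow_eq_pow_sum, hs]
  congr 1
  have hlt : ∀ i, (x i).2 - 1 < n := by
    intro i
    have h2 := (hx i).2.2.2
    have h3 := exponent_le x hx hs i
    omega
  let σ : ι → Fin n := fun i => ⟨(x i).2 - 1, hlt i⟩
  rw [← Finset.prod_fiberwise (s := univ) (g := σ)]
  apply Finset.prod_congr rfl
  intro j _
  have hf : univ.filter (fun i => σ i = j) = univ.filter (fun i => (x i).2 = (j : ℕ) + 1) := by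
    ext i
    simp only [Finset.mem_filter, Finset.mem_univ, true_and, σ, Fin.ext_iff]
    have h2 := (hx i).2.2.2
    omega
  rw [hf, hT j, Polynomial.coeff_zero_eq_eval_zero, eval_prod, ← Finset.prod_pow]
  apply Finset.prod_congr rfl
  intro i hi
  rw [(Finset.mem_filter.mp hi).2, Polynomial.coeff_zero_eq_eval_zero]

/-- Commuting elements of prescribed determinant, from the invariant. -/
theorem exists_centralizer_of_hasInv [Finite F] (g : GL (Fin n) F) (T : Fin n → F[X]) (h : HasInv g T) (j : Fin n)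
    (hj : (T j).natDegree ≠ 0) (c : Fˣ) :
    ∃ Z : GL (Fin n) F, Z * g = g * Z ∧ Matrix.GeneralLinearGroup.det Z = c ^ ((j : ℕ) + 1) := by
  classical
  obtain ⟨ι, fι, x, hx, ⟨φ⟩, hT⟩ := h
  have hne : (univ.filter (fun i => (x i).2 = (j : ℕ) + 1)).Nonempty := by
    by_contra hcon
    rw [Finset.not_nonempty_iff_eq_empty] at hcon
    apply hj
    rw [hT j, hcon]
    simp
  obtain ⟨i₀, hi₀⟩ := hne
  have := (Finset.mem_filter.mp hi₀).2
  obtain ⟨Z, h1, h2⟩ := exists_centralizer g x hx φ i₀ c
  exact ⟨Z, h1, by rw [h2, this]⟩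

end group

end Cfsg.Agent.Lib.SLCount
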