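import Mathlib
import Cfsg.Agent.Lib.SLCountAct

/-!
# The number of conjugacy classes of `SL_n(q)` in terms of invariants
-/

set_option autoImplicit false
set_option linter.unusedSectionVars false

namespace Cfsg.Agent.Lib.SLCount

open Polynomial Finset Module
open Cfsg.Agent.Lib.GLCount

universe u

variable {F : Type u} [Field F] {n : ℕ}

/-- The support of a tuple. -/
def supp (T : Fin n → F[X]) : Finset (Fin n) := univ.filter fun e => (T e).natDegree ≠ 0

/-- The monomial map attached to a subset of exponents. -/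
def phi (S : Finset (Fin n)) : (Fin n → Fˣ) →* Fˣ where
  toFun c := ∏ e ∈ S, c e ^ ((e : ℕ) + 1)
  map_one' := by simp
  map_mul' a b := by simp [mul_pow, Finset.prod_mul_distrib]

/-- The image of the monomial map. -/
abbrev HH (S : Finset (Fin n)) : Subgroup Fˣ := (phi (F := F) S).range

/-- Its index. -/
noncomputable def ww (F : Type u) [Field F] (S : Finset (Fin n)) : ℕ := (HH (F := F) S).index

/-- Tuples of monic polynomials with nonzero constant term. -/
def IsTup (T : Fin n → F[X]) : Prop := ∀ e, (T e).Monic ∧ (T e).coeff 0 ≠ 0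

/-- The determinant of a tuple. -/
def dT (T : Fin n → F[X]) : F := ∏ j, (T j).coeff 0 ^ ((j : ℕ) + 1)

/-- Scaling the constant term. -/
noncomputable def scaleC (c : Fˣ) (f : F[X]) : F[X] :=
  if f.natDegree = 0 then f else f + C (((c : F) - 1) * f.coeff 0)

lemma scaleC_natDegree (c : Fˣ) (f : F[X]) : (scaleC c f).natDegree = f.natDegree := by
  unfold scaleC
  split_ifs with h
  · rfl
  · exact natDegree_add_C

lemma scaleC_monic (c : Fˣ) {f : F[X]} (hf : f.Monic) : (scaleC c f).Monic := by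
  unfold scaleC
  split_ifs with h
  · exact hf
  · apply hf.add_of_left
    refine lt_of_le_of_lt degree_C_le ?_
    rw [degree_eq_natDegree hf.ne_zero]
    exact_mod_cast Nat.pos_of_ne_zero h

lemma scaleC_coeff_zero (c : Fˣ) {f : F[X]} (h : f.natDegree ≠ 0) : (scaleC c f).coeff 0 = c * f.coeff 0 := by
  unfold scaleC
  rw [if_neg h, coeff_add, coeff_C_zero]
  ring

lemma scaleC_coeff_pos (c : Fˣ) (f : F[X]) {i : ℕ} (hi : i ≠ 0) : (scaleC c f).coeff i = f.coeff i := by
  unfold scaleC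
  split_ifs with h
  · rfl
  · rw [coeff_add, coeff_C, if_neg hi, add_zero]

lemma scaleC_of_zero (c : Fˣ) {f : F[X]} (h : f.natDegree = 0) : scaleC c f = f := by
  unfold scaleC
  rw [if_pos h]

lemma scaleC_inv (c : Fˣ) (f : F[X]) : scaleC c⁻¹ (scaleC c f) = f := by
  by_cases h : f.natDegree = 0
  · rw [scaleC_of_zero c h, scaleC_of_zero _ h]
  · have h1 : (scaleC c f).natDegree ≠ 0 := by rwa [scaleC_natDegree]
    ext i
    by_cases hi : i = 0
    · subst hi
      rw [scaleC_coeff_zero _ h1, scaleC_coeff_zero _ h, ← mul_assoc]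
      simp
    · rw [scaleC_coeff_pos _ _ hi, scaleC_coeff_pos _ _ hi]

lemma scaleC_coeff_ne_zero (c : Fˣ) {f : F[X]} (h0 : f.coeff 0 ≠ 0) : (scaleC c f).coeff 0 ≠ 0 := by
  by_cases h : f.natDegree = 0
  · rwa [scaleC_of_zero c h]
  · rw [scaleC_coeff_zero c h]
    exact mul_ne_zero c.ne_zero h0

/-- Scaling a tuple. -/
noncomputable def sc (l : Fin n → Fˣ) (T : Fin n → F[X]) : Fin n → F[X] := fun e => scaleC (l e) (T e)

lemma sc_isTup (l : Fin n → Fˣ) {T : Fin n → F[X]} (h : IsTup T) : IsTup (sc l T) :=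
  fun e => ⟨scaleC_monic _ (h e).1, scaleC_coeff_ne_zero _ (h e).2⟩

lemma sc_natDegree (l : Fin n → Fˣ) (T : Fin n → F[X]) (e : Fin n) : (sc l T e).natDegree = (T e).natDegree :=
  scaleC_natDegree _ _

lemma supp_sc (l : Fin n → Fˣ) (T : Fin n → F[X]) : supp (sc l T) = supp T := by
  unfold supp
  simp only [sc_natDegree]

lemma sc_inv (l : Fin n → Fˣ) (T : Fin n → F[X]) : sc l⁻¹ (sc l T) = T := by
  funext e
  exact scaleC_inv _ _

lemma dT_sc (l : Fin n → Fˣ) (T : Fin n → F[X]) : dT (sc l T) = (phi (supp T) l : Fˣ) * dT T := by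
  classical
  unfold dT
  have h1 : ∀ j : Fin n, (sc l T j).coeff 0 ^ ((j : ℕ) + 1) =
      (if j ∈ supp T then ((l j : Fˣ) : F) ^ ((j : ℕ) + 1) else 1) * (T j).coeff 0 ^ ((j : ℕ) + 1) := by
    intro j
    by_cases hj : (T j).natDegree = 0
    · have : j ∉ supp T := by simp [supp, hj]
      rw [if_neg this, one_mul]
      show (scaleC (l j) (T j)).coeff 0 ^ _ = _
      rw [scaleC_of_zero _ hj]
    · have : j ∈ supp T := by simp [supp, hj]
      rw [if_pos this]
      show (scaleC (l j) (T j)).coeff 0 ^ _ = _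
      rw [scaleC_coeff_zero _ hj, mul_pow]
  rw [Finset.prod_congr rfl (fun j _ => h1 j), Finset.prod_mul_distrib]
  congr 1
  rw [Finset.prod_ite_mem, Finset.univ_inter]
  simp [phi]

section counting

variable [Fintype F]

lemma card_units_eq : Nat.card Fˣ = Fintype.card F - 1 := by
  classical
  rw [Nat.card_eq_fintype_card, Fintype.card_units]

open Classical in
lemma card_mul_le (S : Finset (Fin n)) (A : Finset (Fin n → F[X]))
    (hsc : ∀ T ∈ A, ∀ l, sc l T ∈ A) (a : F) (ha : a ≠ 0) :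
    Nat.card (HH (F := F) S) * (A.filter fun T => supp T = S ∧ dT T = a).card ≤ (A.filter fun T => supp T = S).card := by
  classical
  have hlift : ∀ h : HH (F := F) S, ∃ l : Fin n → Fˣ, phi S l = (h : Fˣ) := fun h => h.2
  choose lift hl using hlift
  rw [Nat.card_eq_fintype_card, ← Finset.card_univ, ← Finset.card_product]
  apply Finset.card_le_card_of_injOn (fun p => sc (lift p.1) p.2)
  · rintro ⟨h, T⟩ hp
    obtain ⟨-, hT⟩ := Finset.mem_product.mp hp
    obtain ⟨hT1, hT2, hT3⟩ := Finset.mem_filter.mp hT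
    exact Finset.mem_filter.mpr ⟨hsc T hT1 _, by simp only [supp_sc]; exact hT2⟩
  · rintro ⟨h, T⟩ hp ⟨h', T'⟩ hp' heq
    obtain ⟨-, hT⟩ := Finset.mem_product.mp hp
    obtain ⟨hT1, hT2, hT3⟩ := Finset.mem_filter.mp hT
    obtain ⟨-, hT'⟩ := Finset.mem_product.mp hp'
    obtain ⟨hT1', hT2', hT3'⟩ := Finset.mem_filter.mp hT'
    simp only at heq
    have h1 : dT (sc (lift h) T) = dT (sc (lift h') T') := by rw [heq]
    simp only [] at hT2 hT3 hT2' hT3'
    rw [dT_sc, dT_sc, hT2, hT2', hl, hl, hT3, hT3'] at h1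
    have h2 : ((h : Fˣ) : F) = ((h' : Fˣ) : F) := mul_right_cancel₀ ha h1
    have h3 : h = h' := Subtype.ext (Units.ext h2)
    subst h3
    have h4 : T = T' := by
      rw [← sc_inv (lift h) T, heq, sc_inv]
    rw [h4]

open Classical in
theorem sum_le (A : Finset (Fin n → F[X])) (hsc : ∀ T ∈ A, ∀ l, sc l T ∈ A) (a : F) (ha : a ≠ 0) :
    (Fintype.card F - 1) * ∑ T ∈ A.filter (fun T => dT T = a), ww F (supp T) ≤ ∑ T ∈ A, ww F (supp T) ^ 2 := by
  classical
  rw [← Finset.sum_fiberwise (s := A) (g := supp), ← Finset.sum_fiberwise (s := A.filter (fun T => dT T = a)) (g := supp),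
    Finset.mul_sum]
  apply Finset.sum_le_sum
  intro S _
  have e1 : ∑ T ∈ (A.filter (fun T => dT T = a)).filter (fun T => supp T = S), ww F (supp T) =
      (A.filter fun T => supp T = S ∧ dT T = a).card * ww F S := by
    rw [Finset.filter_filter, Finset.sum_congr rfl (g := fun _ => ww F S)]
    · rw [Finset.sum_const, smul_eq_mul]
      congr 2
      ext T
      simp only [Finset.mem_filter]
      tauto
    · intro T hT
      rw [(Finset.mem_filter.mp hT).2.2]
  have e2 : ∑ T ∈ A.filter (fun T => supp T = S), ww F (supp T) ^ 2 =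
      (A.filter fun T => supp T = S).card * ww F S ^ 2 := by
    rw [Finset.sum_congr rfl (g := fun _ => ww F S ^ 2)]
    · rw [Finset.sum_const, smul_eq_mul]
    · intro T hT
      rw [(Finset.mem_filter.mp hT).2]
  rw [e1, e2]
  have h1 := card_mul_le S A hsc a ha
  have h2 : Nat.card (HH (F := F) S) * ww F S = Fintype.card F - 1 := by
    rw [← card_units_eq]
    exact Subgroup.card_mul_index _
  rw [← h2]
  calc Nat.card (HH (F := F) S) * ww F S * ((A.filter fun T => supp T = S ∧ dT T = a).card * ww F S)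
      = (Nat.card (HH (F := F) S) * (A.filter fun T => supp T = S ∧ dT T = a).card) * ww F S ^ 2 := by ring
    _ ≤ _ := Nat.mul_le_mul_right _ h1

/-- Elements of the monomial image come from commuting elements. -/
lemma exists_comm_of_mem (g : GL (Fin n) F) (T : Fin n → F[X]) (h : HasInv g T) :
    ∀ x ∈ HH (F := F) (supp T), ∃ Z : GL (Fin n) F, Z * g = g * Z ∧ Matrix.GeneralLinearGroup.det Z = x := by
  let D : Subgroup Fˣ := (Subgroup.centralizer {g}).map Matrix.GeneralLinearGroup.det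
  have hD : ∀ x ∈ HH (F := F) (supp T), x ∈ D := by
    rintro _ ⟨c, rfl⟩
    show ∏ e ∈ supp T, c e ^ ((e : ℕ) + 1) ∈ D
    refine Subgroup.prod_mem D fun e he => ?_
    have he' : (T e).natDegree ≠ 0 := (Finset.mem_filter.mp he).2
    obtain ⟨Z, h1, h2⟩ := exists_centralizer_of_hasInv g T h e he' (c e)
    refine ⟨Z, ?_, h2⟩
    rw [SetLike.mem_coe, Subgroup.mem_centralizer_singleton_iff]
    exact h1
  intro x hx
  obtain ⟨Z, h1, h2⟩ := hD x hx
  refine ⟨Z, ?_, h2⟩
  rwa [SetLike.mem_coe, Subgroup.mem_centralizer_singleton_iff] at h1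

/-- The number of classes of the special linear group in a class of the general linear group. -/
lemma fiber_bound (g₀ : GL (Fin n) F) (H : Subgroup Fˣ)
    (hH : ∀ x ∈ H, ∃ Z : GL (Fin n) F, Z * g₀ = g₀ * Z ∧ Matrix.GeneralLinearGroup.det Z = x)
    (C : Finset (ConjClasses (Matrix.SpecialLinearGroup (Fin n) F)))
    (hC : ∀ c ∈ C, ∃ s : Matrix.SpecialLinearGroup (Fin n) F, ConjClasses.mk s = c ∧
      IsConj (Matrix.SpecialLinearGroup.toGL s) g₀) : C.card ≤ H.index := by
  classical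
  have h1 : ∀ c ∈ C, ∃ (s : Matrix.SpecialLinearGroup (Fin n) F) (P : GL (Fin n) F), ConjClasses.mk s = c ∧
      P * g₀ * P⁻¹ = Matrix.SpecialLinearGroup.toGL s := by
    intro c hc
    obtain ⟨s, hs, hcj⟩ := hC c hc
    obtain ⟨P, hP⟩ := isConj_iff.mp hcj.symm
    exact ⟨s, P, hs, hP⟩
  choose! s P hs hP using h1
  haveI : Fintype (Fˣ ⧸ H) := Fintype.ofFinite _
  rw [Subgroup.index_eq_card, Nat.card_eq_fintype_card, ← Finset.card_univ]
  apply Finset.card_le_card_of_injOn (fun c => (QuotientGroup.mk (Matrix.GeneralLinearGroup.det (P c)) : Fˣ ⧸ H))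
    (fun _ _ => Finset.mem_univ _)
  intro c hc c' hc' hcc
  have hcc' := QuotientGroup.eq.mp hcc
  obtain ⟨Z, hZ1, hZ2⟩ := hH _ hcc'
  let R : GL (Fin n) F := P c' * Z⁻¹ * (P c)⁻¹
  have hdet : Matrix.GeneralLinearGroup.det R = 1 := by
    simp only [R, map_mul, map_inv, hZ2]
    simp only [mul_inv_rev, inv_inv]
    rw [mul_inv_cancel_left, mul_inv_cancel]
  have hdet' : R.val.det = 1 := by
    have := congrArg (fun u : Fˣ => (u : F)) hdet
    simpa using this
  let r : Matrix.SpecialLinearGroup (Fin n) F := ⟨R.val, hdet'⟩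
  have hr : Matrix.SpecialLinearGroup.toGL r = R := Units.ext rfl
  have hZ3 : Z⁻¹ * g₀ = g₀ * Z⁻¹ := by
    have hc : Commute Z g₀ := hZ1
    exact hc.inv_left.eq
  have hconj : R * Matrix.SpecialLinearGroup.toGL (s c) = Matrix.SpecialLinearGroup.toGL (s c') * R := by
    rw [← hP c hc, ← hP c' hc']
    simp only [R]
    calc P c' * Z⁻¹ * (P c)⁻¹ * (P c * g₀ * (P c)⁻¹) = P c' * (Z⁻¹ * g₀) * (P c)⁻¹ := by group
      _ = P c' * (g₀ * Z⁻¹) * (P c)⁻¹ := by rw [hZ3]
      _ = _ := by group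
  have hconj' : r * s c = s c' * r := by
    apply Matrix.SpecialLinearGroup.toGL_injective
    rw [map_mul, map_mul, hr]
    exact hconj
  rw [← hs c hc, ← hs c' hc']
  rw [ConjClasses.mk_eq_mk_iff_isConj, isConj_iff]
  exact ⟨r, by rw [hconj', mul_inv_cancel_right]⟩

/-- The core inequality: a set of classes whose invariants lie in a family closed under scaling. -/
theorem core (A : Finset (Fin n → F[X])) (hsc : ∀ T ∈ A, ∀ l, sc l T ∈ A)
    (C : Finset (ConjClasses (Matrix.SpecialLinearGroup (Fin n) F)))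
    (τ : Matrix.SpecialLinearGroup (Fin n) F → Fin n → F[X])
    (hτ : ∀ s, HasInv (Matrix.SpecialLinearGroup.toGL s) (τ s))
    (hC : ∀ c ∈ C, ∃ s, ConjClasses.mk s = c ∧ τ s ∈ A) :
    (Fintype.card F - 1) * C.card ≤ ∑ T ∈ A, ww F (supp T) ^ 2 := by
  classical
  set a : F := (-1) ^ n with ha
  have ha0 : a ≠ 0 := pow_ne_zero _ (by simp)
  have hd : ∀ s, dT (τ s) = a := by
    intro s
    have h1 := det_of_hasInv _ _ (hτ s)
    have h2 : (Matrix.SpecialLinearGroup.toGL s).val.det = 1 := s.2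
    rw [h2] at h1
    have h3 : a * a = 1 := by
      rw [ha, ← mul_pow]
      simp
    calc dT (τ s) = (a * a) * dT (τ s) := by rw [h3, one_mul]
      _ = a * (a * dT (τ s)) := by ring
      _ = a * 1 := by
          have h1' : a * dT (τ s) = 1 := h1.symm
          rw [h1']
      _ = a := mul_one _
  choose! s hs1 hs2 using hC
  have hmaps : ∀ c ∈ C, τ (s c) ∈ A.filter (fun T => dT T = a) := fun c hc =>
    Finset.mem_filter.mpr ⟨hs2 c hc, hd _⟩
  have h1 := Finset.card_eq_sum_card_fiberwise hmaps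
  have h2 : ∀ T ∈ A.filter (fun T => dT T = a), (C.filter (fun c => τ (s c) = T)).card ≤ ww F (supp T) := by
    intro T _
    by_cases hne : (C.filter (fun c => τ (s c) = T)).Nonempty
    · obtain ⟨c₀, hc₀⟩ := hne
      obtain ⟨hc₀1, hc₀2⟩ := Finset.mem_filter.mp hc₀
      have hg₀ : HasInv (Matrix.SpecialLinearGroup.toGL (s c₀)) T := hc₀2 ▸ hτ _
      refine fiber_bound (Matrix.SpecialLinearGroup.toGL (s c₀)) _ (exists_comm_of_mem _ T hg₀) _ ?_
      intro c hc
      obtain ⟨hc1, hc2⟩ := Finset.mem_filter.mp hc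
      refine ⟨s c, hs1 c hc1, ?_⟩
      apply isConj_of_hasInv _ _ T _ hg₀
      exact hc2 ▸ hτ _
    · rw [Finset.not_nonempty_iff_eq_empty.mp hne]
      simp
  rw [h1]
  calc (Fintype.card F - 1) * ∑ T ∈ A.filter (fun T => dT T = a), (C.filter (fun c => τ (s c) = T)).card
      ≤ (Fintype.card F - 1) * ∑ T ∈ A.filter (fun T => dT T = a), ww F (supp T) :=
        Nat.mul_le_mul_left _ (Finset.sum_le_sum h2)
    _ ≤ _ := sum_le A hsc a ha0

omit [Fintype F] in
/-- The divisibility for the index. -/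
lemma ww_dvd_exp [Finite F] (S : Finset (Fin n)) (e : Fin n) (he : e ∈ S) : ww F S ∣ (e : ℕ) + 1 := by
  classical
  haveI : Fintype F := Fintype.ofFinite F
  obtain ⟨ζ, hζ⟩ := IsCyclic.exists_generator (α := Fˣ)
  let H := HH (F := F) S
  have h1 : orderOf (QuotientGroup.mk ζ : Fˣ ⧸ H) = Nat.card (Fˣ ⧸ H) := by
    apply orderOf_eq_card_of_forall_mem_zpowers
    intro y
    obtain ⟨x, rfl⟩ := QuotientGroup.mk_surjective y
    obtain ⟨k, rfl⟩ := hζ x
    exact ⟨k, by simp⟩
  have h2 : ww F S = orderOf (QuotientGroup.mk ζ : Fˣ ⧸ H) := by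
    rw [h1]
    exact Subgroup.index_eq_card _
  rw [h2]
  apply orderOf_dvd_of_pow_eq_one
  rw [← QuotientGroup.mk_pow, QuotientGroup.eq_one_iff]
  refine ⟨Function.update 1 e ζ, ?_⟩
  show ∏ j ∈ S, (Function.update (1 : Fin n → Fˣ) e ζ j) ^ ((j : ℕ) + 1) = _
  rw [Finset.prod_eq_single e]
  · simp
  · intro b _ hb
    simp [Function.update_of_ne hb]
  · intro h
    exact absurd he h

/-- The nontrivial divisors of `q - 1`. -/
def Dset (q : ℕ) : Finset ℕ := (Nat.divisors (q - 1)).filter fun D => 2 ≤ D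

lemma ww_sq_le (S : Finset (Fin n)) : ww F S ^ 2 ≤
    1 + ∑ D ∈ Dset (Fintype.card F), (D ^ 2 - 1) * (if ∀ e ∈ S, D ∣ (e : ℕ) + 1 then 1 else 0) := by
  classical
  have hpos : ww F S ≠ 0 := Subgroup.index_ne_zero_of_finite
  by_cases h1 : ww F S = 1
  · rw [h1]
    simp
  · have hmem : ww F S ∈ Dset (Fintype.card F) := by
      unfold Dset
      rw [Finset.mem_filter, Nat.mem_divisors]
      refine ⟨⟨?_, ?_⟩, by omega⟩
      · rw [← card_units_eq]
        exact Subgroup.index_dvd_card _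
      · have := Fintype.one_lt_card (α := F)
        omega
    have h2 := Finset.single_le_sum (f := fun D => (D ^ 2 - 1) * (if ∀ e ∈ S, D ∣ (e : ℕ) + 1 then 1 else 0))
      (fun _ _ => Nat.zero_le _) hmem
    rw [if_pos (fun e he => ww_dvd_exp S e he), mul_one] at h2
    have h3 : 1 ≤ ww F S ^ 2 := Nat.one_le_pow _ _ (Nat.pos_of_ne_zero hpos)
    omega

/-- The sum of squares of indices. -/
theorem sum_sq_le (A : Finset (Fin n → F[X])) : ∑ T ∈ A, ww F (supp T) ^ 2 ≤
    A.card + ∑ D ∈ Dset (Fintype.card F), (D ^ 2 - 1) * (A.filter fun T => ∀ e ∈ supp T, D ∣ (e : ℕ) + 1).card := by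
  classical
  calc ∑ T ∈ A, ww F (supp T) ^ 2
      ≤ ∑ T ∈ A, (1 + ∑ D ∈ Dset (Fintype.card F), (D ^ 2 - 1) * (if ∀ e ∈ supp T, D ∣ (e : ℕ) + 1 then 1 else 0)) :=
        Finset.sum_le_sum fun T _ => ww_sq_le _
    _ = _ := by
        rw [Finset.sum_add_distrib, Finset.sum_comm]
        simp only [Finset.sum_const, smul_eq_mul, mul_one, ← Finset.mul_sum, Finset.card_filter]

end counting

end Cfsg.Agent.Lib.SLCount
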