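import Mathlib
import Cfsg.Agent.Lib.SLCountCore

/-!
# Counting tuples with divisibility conditions
-/

set_option autoImplicit false
set_option linter.unusedSectionVars false

namespace Cfsg.Agent.Lib.SLCount

open Polynomial Finset Module
open Cfsg.Agent.Lib.GLCount

universe u

variable {F : Type u} [Field F] {n : ℕ}

/-- Tuples of weight `m`. -/
def IsW (m : ℕ) (T : Fin n → F[X]) : Prop :=
  IsTup T ∧ ∑ i : Fin n, ((i : ℕ) + 1) * (T i).natDegree = m

/-- The polynomials are polynomials in `X ^ r`. -/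
def Pr (r : ℕ) (T : Fin n → F[X]) : Prop := ∀ e i, (T e).coeff i ≠ 0 → r ∣ i

section counting

variable [Fintype F]

lemma finite_isW (n : ℕ) : {T : Fin n → F[X] | IsW n T}.Finite := by
  classical
  cases n with
  | zero => exact Set.toFinite _
  | succ k =>
    obtain ⟨s, hs, -⟩ := tup_total (F := F) k (k + 1) (by omega)
    refine (s.finite_toSet).subset ?_
    intro T hT
    exact hs T hT.1 hT.2

variable (F) in
/-- All tuples of weight `n`. -/
noncomputable def TT (n : ℕ) : Finset (Fin n → F[X]) := (finite_isW (F := F) n).toFinset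

lemma mem_TT {T : Fin n → F[X]} : T ∈ TT F n ↔ IsW n T := by
  unfold TT
  simp

lemma TT_card_le (hn : 1 ≤ n) : (TT F n).card ≤ Fintype.card F ^ n := by
  classical
  obtain ⟨k, rfl⟩ : ∃ k, n = k + 1 := ⟨n - 1, by omega⟩
  obtain ⟨s, hs, hc⟩ := tup_total (F := F) k (k + 1) hn
  refine le_trans (Finset.card_le_card ?_) hc
  intro T hT
  have := mem_TT.mp hT
  exact hs T this.1 this.2

lemma TT_card_le_K (k : ℕ) (hk : k = n) :
    (TT F n).card ≤ ∑ L ∈ range (n + 1), K (Fintype.card F) n L n := by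
  classical
  choose s hs hs' using tup_bound (F := F) n
  refine le_trans (Finset.card_le_card ?_) (le_trans Finset.card_biUnion_le
    (Finset.sum_le_sum fun L _ => hs' L n))
  intro T hT
  obtain ⟨h1, h2⟩ := mem_TT.mp hT
  rw [Finset.mem_biUnion]
  refine ⟨∑ i, (T i).natDegree, Finset.mem_range.mpr ?_, hs _ _ T ⟨h1, rfl, h2⟩⟩
  have : ∑ i, (T i).natDegree ≤ n := by
    refine le_trans (Finset.sum_le_sum ?_) h2.le
    intro i _
    nlinarith [Nat.zero_le ((i : ℕ) * (T i).natDegree)]
  omega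

lemma TT_card_one : (TT F 1).card + 1 ≤ Fintype.card F := by
  have h := TT_card_le_K (F := F) (n := 1) 1 rfl
  have hq : 2 ≤ Fintype.card F := Fintype.one_lt_card
  obtain ⟨q, hq'⟩ : ∃ q, Fintype.card F = q + 2 := ⟨Fintype.card F - 2, by omega⟩
  rw [hq'] at h ⊢
  simp [K, cc, Finset.sum_range_succ] at h
  omega

lemma TT_card_two : (TT F 2).card + 1 ≤ Fintype.card F ^ 2 := by
  have h := TT_card_le_K (F := F) (n := 2) 2 rfl
  have hq : 2 ≤ Fintype.card F := Fintype.one_lt_card
  obtain ⟨q, hq'⟩ : ∃ q, Fintype.card F = q + 2 := ⟨Fintype.card F - 2, by omega⟩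
  rw [hq'] at h ⊢
  simp [K, cc, Finset.sum_range_succ] at h
  have h2 : (q + 2) ^ 2 - (q + 2) + (q + 2 - 1) + 1 = (q + 2) ^ 2 := by
    have : q + 2 ≤ (q + 2) ^ 2 := by nlinarith
    omega
  omega

lemma TT_card_three : (TT F 3).card + Fintype.card F ≤ Fintype.card F ^ 3 := by
  have h := TT_card_le_K (F := F) (n := 3) 3 rfl
  have hq : 2 ≤ Fintype.card F := Fintype.one_lt_card
  obtain ⟨q, hq'⟩ : ∃ q, Fintype.card F = q + 2 := ⟨Fintype.card F - 2, by omega⟩
  rw [hq'] at h ⊢
  simp [K, cc, Finset.sum_range_succ] at h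
  have h1 : (q + 1) + (q + 1) * (q + 1) + (q + 2) = (q + 2) ^ 2 := by ring
  have h2 : (q + 2) ^ 2 ≤ (q + 2) ^ 3 := Nat.pow_le_pow_right (by omega) (by omega)
  omega

lemma degree_dvd_of_Pr {r : ℕ} {T : Fin n → F[X]} (hT : IsTup T) (hP : Pr r T) (e : Fin n) : r ∣ (T e).natDegree := by
  apply hP e
  have := (hT e).1
  rw [this.coeff_natDegree]
  exact one_ne_zero

lemma Pr_expand {r : ℕ} (hr : 1 ≤ r) {T : Fin n → F[X]} (hP : Pr r T) (e : Fin n) :
    expand F r (contract r (T e)) = T e := by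
  ext i
  rw [coeff_expand (by omega)]
  split_ifs with h
  · rw [coeff_contract (by omega), Nat.div_mul_cancel h]
  · by_contra hne
    exact h (hP e i (Ne.symm hne))

lemma contract_natDegree {r : ℕ} (hr : 1 ≤ r) {T : Fin n → F[X]} (hP : Pr r T) (e : Fin n) :
    (contract r (T e)).natDegree * r = (T e).natDegree := by
  have h := Pr_expand hr hP e
  have h2 := natDegree_expand r (contract r (T e))
  rw [h] at h2
  exact h2.symm

lemma contract_monic {r : ℕ} (hr : 1 ≤ r) {T : Fin n → F[X]} (hT : IsTup T) (hP : Pr r T) (e : Fin n) :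
    (contract r (T e)).Monic := by
  have h := Pr_expand hr hP e
  have h2 := (hT e).1
  rw [← h] at h2
  exact (monic_expand_iff (by omega)).mp h2

open Classical in
/-- The count of tuples with divisibility conditions. -/
lemma count_rD {r D : ℕ} (hr : 1 ≤ r) (hD : 1 ≤ D) (hn : 1 ≤ n) (hrD : r * D ∣ n) :
    ((TT F n).filter (fun T => Pr r T ∧ ∀ e ∈ supp T, D ∣ (e : ℕ) + 1)).card ≤ (TT F (n / (r * D))).card := by
  classical
  obtain ⟨m, rfl⟩ := hrD
  have hm0 : 0 < r * D := by positivity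
  have hm : r * D * m / (r * D) = m := Nat.mul_div_cancel_left m hm0
  rw [hm]
  have hlt : ∀ i : Fin m, D * ((i : ℕ) + 1) - 1 < r * D * m := by
    intro i
    have h1 : D * ((i : ℕ) + 1) ≤ D * m := Nat.mul_le_mul_left _ i.2
    have h2 : D * m ≤ r * (D * m) := Nat.le_mul_of_pos_left _ (by omega)
    have h3 : 1 ≤ D * ((i : ℕ) + 1) := by nlinarith
    rw [mul_assoc]
    omega
  let emb : Fin m → Fin (r * D * m) := fun i => ⟨D * ((i : ℕ) + 1) - 1, hlt i⟩
  have hemb : Function.Injective emb := by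
    intro i j hij
    have h1 : D * ((i : ℕ) + 1) - 1 = D * ((j : ℕ) + 1) - 1 := congrArg Fin.val hij
    have h2 : 1 ≤ D * ((i : ℕ) + 1) := by nlinarith
    have h3 : 1 ≤ D * ((j : ℕ) + 1) := by nlinarith
    have h4 : D * ((i : ℕ) + 1) = D * ((j : ℕ) + 1) := by omega
    have h5 := Nat.eq_of_mul_eq_mul_left (by omega) h4
    exact Fin.ext (by omega)
  have hembv : ∀ i : Fin m, ((emb i : Fin (r * D * m)) : ℕ) + 1 = D * ((i : ℕ) + 1) := by
    intro i
    have h2 : 1 ≤ D * ((i : ℕ) + 1) := by nlinarith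
    show D * ((i : ℕ) + 1) - 1 + 1 = _
    omega
  -- elements of the support are in the image
  have hsupp : ∀ T : Fin (r * D * m) → F[X], IsW (r * D * m) T → Pr r T → (∀ e ∈ supp T, D ∣ (e : ℕ) + 1) →
      ∀ e ∈ supp T, ∃ i, emb i = e := by
    intro T hT hP hdv e he
    obtain ⟨k, hk⟩ := hdv e he
    have hdeg : (T e).natDegree ≠ 0 := (Finset.mem_filter.mp he).2
    have h1 : ((e : ℕ) + 1) * (T e).natDegree ≤ r * D * m := by
      refine le_trans ?_ hT.2.le
      exact Finset.single_le_sum (f := fun i : Fin (r * D * m) => ((i : ℕ) + 1) * (T i).natDegree)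
        (fun _ _ => Nat.zero_le _) (Finset.mem_univ e)
    have h2 : r ≤ (T e).natDegree := Nat.le_of_dvd (Nat.pos_of_ne_zero hdeg) (degree_dvd_of_Pr hT.1 hP e)
    have h3 : ((e : ℕ) + 1) * r ≤ r * D * m := le_trans (Nat.mul_le_mul_left _ h2) h1
    have hk1 : 1 ≤ k := by
      rcases Nat.eq_zero_or_pos k with h | h
      · subst h
        simp at hk
      · exact h
    have hkm : k ≤ m := by
      rw [hk] at h3
      have h4 : r * D * k ≤ r * D * m := by
        calc r * D * k = D * k * r := by ring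
          _ ≤ _ := h3
      exact Nat.le_of_mul_le_mul_left h4 hm0
    refine ⟨⟨k - 1, by omega⟩, Fin.ext ?_⟩
    show D * (k - 1 + 1) - 1 = e
    rw [Nat.sub_add_cancel hk1, ← hk]
    omega
  let Ψ : (Fin (r * D * m) → F[X]) → Fin m → F[X] := fun T i => contract r (T (emb i))
  apply Finset.card_le_card_of_injOn Ψ
  · intro T hT
    obtain ⟨hT1, hP, hdv⟩ := Finset.mem_filter.mp hT
    have hW := mem_TT.mp hT1
    refine mem_TT.mpr ⟨?_, ?_⟩
    · intro i
      refine ⟨contract_monic hr hW.1 hP _, ?_⟩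
      show (contract r (T (emb i))).coeff 0 ≠ 0
      rw [coeff_contract (by omega), zero_mul]
      exact (hW.1 _).2
    · have h1 : ∑ i : Fin m, ((emb i : ℕ) + 1) * (T (emb i)).natDegree =
          ∑ e : Fin (r * D * m), ((e : ℕ) + 1) * (T e).natDegree := by
        apply Finset.sum_of_injOn emb hemb.injOn (fun _ _ => Finset.mem_univ _)
        · intro e _ he
          have : e ∉ supp T := by
            intro hs
            obtain ⟨i, hi⟩ := hsupp T hW hP hdv e hs
            exact he ⟨i, Finset.mem_coe.mpr (Finset.mem_univ _), hi⟩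
          have h0 : (T e).natDegree = 0 := by
            by_contra h0
            exact this (Finset.mem_filter.mpr ⟨Finset.mem_univ _, h0⟩)
          rw [h0, mul_zero]
        · intro i _
          rfl
      rw [hW.2] at h1
      have h2 : ∀ i : Fin m, ((emb i : ℕ) + 1) * (T (emb i)).natDegree =
          r * D * (((i : ℕ) + 1) * (Ψ T i).natDegree) := by
        intro i
        rw [hembv, ← contract_natDegree hr hP (emb i)]
        show D * ((i : ℕ) + 1) * ((contract r (T (emb i))).natDegree * r) = r * D * (((i : ℕ) + 1) * (contract r (T (emb i))).natDegree)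
        ring
      rw [Finset.sum_congr rfl (fun i _ => h2 i), ← Finset.mul_sum] at h1
      exact Nat.eq_of_mul_eq_mul_left hm0 h1
  · intro T hT T' hT' heq
    obtain ⟨hT1, hP, hdv⟩ := Finset.mem_filter.mp (Finset.mem_coe.mp hT)
    obtain ⟨hT1', hP', hdv'⟩ := Finset.mem_filter.mp (Finset.mem_coe.mp hT')
    have hW := mem_TT.mp hT1
    have hW' := mem_TT.mp hT1'
    funext e
    by_cases he : ∃ i, emb i = e
    · obtain ⟨i, rfl⟩ := he
      rw [← Pr_expand hr hP, ← Pr_expand hr hP']
      have := congrFun heq i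
      simp only [Ψ] at this
      rw [this]
    · have h1 : (T e).natDegree = 0 := by
        by_contra h0
        exact he (hsupp T hW hP hdv e (Finset.mem_filter.mpr ⟨Finset.mem_univ _, h0⟩))
      have h2 : (T' e).natDegree = 0 := by
        by_contra h0
        exact he (hsupp T' hW' hP' hdv' e (Finset.mem_filter.mpr ⟨Finset.mem_univ _, h0⟩))
      rw [(hW.1 e).1.natDegree_eq_zero.mp h1, (hW'.1 e).1.natDegree_eq_zero.mp h2]

/-- The support condition forces divisibility of the degree. -/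
lemma dvd_of_mem {r D : ℕ} {T : Fin n → F[X]} (hW : IsW n T) (hP : Pr r T) (hdv : ∀ e ∈ supp T, D ∣ (e : ℕ) + 1) :
    r * D ∣ n := by
  rw [← hW.2]
  apply Finset.dvd_sum
  intro e _
  by_cases h0 : (T e).natDegree = 0
  · rw [h0, mul_zero]
    exact dvd_zero _
  · have h1 := hdv e (Finset.mem_filter.mpr ⟨Finset.mem_univ _, h0⟩)
    have h2 := degree_dvd_of_Pr hW.1 hP e
    rw [mul_comm r D]
    exact Nat.mul_dvd_mul h1 h2

/-- The family of tuples which are polynomials in `X ^ r`. -/
noncomputable def AA (F : Type u) [Field F] [Fintype F] (n r : ℕ) : Finset (Fin n → F[X]) := by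
  classical
  exact (TT F n).filter (fun T => Pr r T)

lemma mem_AA {r : ℕ} {T : Fin n → F[X]} : T ∈ AA F n r ↔ IsW n T ∧ Pr r T := by
  classical
  unfold AA
  rw [Finset.mem_filter, mem_TT]

lemma AA_sc {r : ℕ} : ∀ T ∈ AA F n r, ∀ l, sc l T ∈ AA F n r := by
  intro T hT l
  obtain ⟨hW, hP⟩ := mem_AA.mp hT
  refine mem_AA.mpr ⟨⟨sc_isTup l hW.1, ?_⟩, ?_⟩
  · simp only [sc_natDegree]
    exact hW.2
  · intro e i hi
    by_cases h0 : i = 0
    · subst h0
      exact dvd_zero _
    · have : (scaleC (l e) (T e)).coeff i ≠ 0 := hi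
      rw [scaleC_coeff_pos _ _ h0] at this
      exact hP e i this

/-- The bound function. -/
noncomputable def Gf (F : Type u) [Field F] [Fintype F] (m : ℕ) : ℕ :=
  (TT F m).card + ∑ D ∈ Dset (Fintype.card F), (D ^ 2 - 1) * (if D ∣ m then (TT F (m / D)).card else 0)

/-- The main upper bound for a set of classes. -/
theorem main_bound {r : ℕ} (hr : 1 ≤ r) (hn : 1 ≤ n) (hrn : r ∣ n)
    (C : Finset (ConjClasses (Matrix.SpecialLinearGroup (Fin n) F)))
    (τ : Matrix.SpecialLinearGroup (Fin n) F → Fin n → F[X])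
    (hτ : ∀ s, HasInv (Matrix.SpecialLinearGroup.toGL s) (τ s))
    (hC : ∀ c ∈ C, ∃ s, ConjClasses.mk s = c ∧ IsW n (τ s) ∧ Pr r (τ s)) :
    (Fintype.card F - 1) * C.card ≤ Gf F (n / r) := by
  classical
  have h1 := core (AA F n r) AA_sc C τ hτ (by
    intro c hc
    obtain ⟨s, hs, h2, h3⟩ := hC c hc
    exact ⟨s, hs, mem_AA.mpr ⟨h2, h3⟩⟩)
  refine h1.trans ((sum_sq_le _).trans ?_)
  unfold Gf
  have hm1 : 1 ≤ n / r := Nat.div_pos (Nat.le_of_dvd (by omega) hrn) (by omega)
  apply Nat.add_le_add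
  · have h2 := count_rD (F := F) (r := r) (D := 1) hr le_rfl hn (by simpa using hrn)
    rw [mul_one] at h2
    refine le_trans (Finset.card_le_card ?_) h2
    intro T hT
    obtain ⟨hW, hP⟩ := mem_AA.mp hT
    exact Finset.mem_filter.mpr ⟨mem_TT.mpr hW, hP, fun _ _ => one_dvd _⟩
  · apply Finset.sum_le_sum
    intro D hD
    apply Nat.mul_le_mul_left
    have hD1 : 1 ≤ D := by
      have := (Finset.mem_filter.mp hD).2
      omega
    by_cases hd : D ∣ n / r
    · rw [if_pos hd]
      have hrD : r * D ∣ n := by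
        obtain ⟨k, hk⟩ := hd
        refine ⟨k, ?_⟩
        rw [mul_assoc, ← hk, Nat.mul_div_cancel' hrn]
      have h2 := count_rD (F := F) (r := r) (D := D) hr hD1 hn hrD
      have e : n / (r * D) = n / r / D := (Nat.div_div_eq_div_mul n r D).symm
      rw [e] at h2
      refine le_trans (Finset.card_le_card ?_) h2
      intro T hT
      obtain ⟨hT1, hT2⟩ := Finset.mem_filter.mp hT
      obtain ⟨hW, hP⟩ := mem_AA.mp hT1
      exact Finset.mem_filter.mpr ⟨mem_TT.mpr hW, hP, hT2⟩
    · rw [if_neg hd]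
      rw [Nat.le_zero, Finset.card_eq_zero, Finset.filter_eq_empty_iff]
      intro T hT hT2
      obtain ⟨hW, hP⟩ := mem_AA.mp hT
      apply hd
      obtain ⟨k, hk⟩ := dvd_of_mem hW hP hT2
      refine ⟨k, ?_⟩
      rw [hk, mul_assoc]
      exact Nat.mul_div_cancel_left _ (by omega)

end counting

end Cfsg.Agent.Lib.SLCount
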