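import Mathlib
import Cfsg.Agent.Lib.SLCountTup

/-!
# Numerical bounds for the class numbers of `SL_n(q)`
-/

set_option autoImplicit false
set_option linter.unusedSectionVars false

namespace Cfsg.Agent.Lib.SLCount

open Finset

/-- Bounds on the counting function. -/
structure TB (q : ℕ) (t : ℕ → ℕ) : Prop where
  pow : ∀ m, 1 ≤ m → t m ≤ q ^ m
  one : t 1 + 1 ≤ q
  two : t 2 + 1 ≤ q ^ 2
  three : t 3 + q ≤ q ^ 3

/-- The secondary terms. -/
def PP (q : ℕ) (t : ℕ → ℕ) (m : ℕ) : ℕ :=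
  ∑ D ∈ Dset q, (D ^ 2 - 1) * (if D ∣ m then t (m / D) else 0)

/-- The bound. -/
def Gb (q : ℕ) (t : ℕ → ℕ) (m : ℕ) : ℕ := t m + PP q t m

lemma PP_eq (q : ℕ) (t : ℕ → ℕ) (m : ℕ) (hm : 1 ≤ m) (hq : 2 ≤ q) :
    PP q t m = ∑ D ∈ (Nat.divisors m).filter (fun D => 2 ≤ D ∧ D ∣ q - 1), (D ^ 2 - 1) * t (m / D) := by
  unfold PP Dset
  have h1 : ∀ D, (D ^ 2 - 1) * (if D ∣ m then t (m / D) else 0) =
      if D ∣ m then (D ^ 2 - 1) * t (m / D) else 0 := by
    intro D
    split_ifs <;> simp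
  simp only [h1]
  rw [← Finset.sum_filter]
  apply Finset.sum_congr _ (fun _ _ => rfl)
  ext D
  simp only [Finset.mem_filter, Nat.mem_divisors]
  constructor
  · rintro ⟨⟨⟨h2, h3⟩, h4⟩, h5⟩
    exact ⟨⟨h5, by omega⟩, h4, h2⟩
  · rintro ⟨⟨h2, h3⟩, h4, h5⟩
    exact ⟨⟨⟨h5, by omega⟩, h4⟩, h2⟩

lemma PP_one (q : ℕ) (t : ℕ → ℕ) (hq : 2 ≤ q) : PP q t 1 = 0 := by
  rw [PP_eq q t 1 le_rfl hq]
  simp

lemma PP_two (q : ℕ) (t : ℕ → ℕ) (hq : 2 ≤ q) : PP q t 2 = if 2 ∣ q - 1 then 3 * t 1 else 0 := by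
  rw [PP_eq q t 2 (by omega) hq, show Nat.divisors 2 = {1, 2} by decide]
  by_cases h : 2 ∣ q - 1 <;> simp [Finset.filter_insert, Finset.filter_singleton, h]

lemma PP_three (q : ℕ) (t : ℕ → ℕ) (hq : 2 ≤ q) : PP q t 3 = if 3 ∣ q - 1 then 8 * t 1 else 0 := by
  rw [PP_eq q t 3 (by omega) hq, show Nat.divisors 3 = {1, 3} by decide]
  by_cases h : 3 ∣ q - 1 <;> simp [Finset.filter_insert, Finset.filter_singleton, h]

lemma PP_four (q : ℕ) (t : ℕ → ℕ) (hq : 2 ≤ q) :
    PP q t 4 = (if 2 ∣ q - 1 then 3 * t 2 else 0) + (if 4 ∣ q - 1 then 15 * t 1 else 0) := by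
  rw [PP_eq q t 4 (by omega) hq, show Nat.divisors 4 = {1, 2, 4} by decide]
  by_cases h : 2 ∣ q - 1 <;> by_cases h' : 4 ∣ q - 1 <;>
    simp [Finset.filter_insert, Finset.filter_singleton, h, h']

lemma PP_five (q : ℕ) (t : ℕ → ℕ) (hq : 2 ≤ q) : PP q t 5 = if 5 ∣ q - 1 then 24 * t 1 else 0 := by
  rw [PP_eq q t 5 (by omega) hq, show Nat.divisors 5 = {1, 5} by decide]
  by_cases h : 5 ∣ q - 1 <;> simp [Finset.filter_insert, Finset.filter_singleton, h]

lemma PP_six (q : ℕ) (t : ℕ → ℕ) (hq : 2 ≤ q) :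
    PP q t 6 = (if 2 ∣ q - 1 then 3 * t 3 else 0) + (if 3 ∣ q - 1 then 8 * t 2 else 0) +
      (if 6 ∣ q - 1 then 35 * t 1 else 0) := by
  rw [PP_eq q t 6 (by omega) hq, show Nat.divisors 6 = {1, 2, 3, 6} by decide]
  by_cases h : 2 ∣ q - 1 <;> by_cases h' : 3 ∣ q - 1 <;> by_cases h'' : 6 ∣ q - 1 <;>
    simp [Finset.filter_insert, Finset.filter_singleton, h, h', h'']
  all_goals ring

/-- The generic bound on the secondary terms. -/
lemma PP_le (q : ℕ) (t : ℕ → ℕ) (m : ℕ) (hm : 1 ≤ m) (hq : 2 ≤ q) (ht : ∀ m, 1 ≤ m → t m ≤ q ^ m) :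
    PP q t m ≤ q ^ (m / 2 + 3) := by
  classical
  rw [PP_eq q t m hm hq]
  set s := (Nat.divisors m).filter (fun D => 2 ≤ D ∧ D ∣ q - 1) with hs
  have hmem : ∀ D ∈ s, D ∣ m ∧ 2 ≤ D ∧ D ≤ q ∧ 1 ≤ m / D ∧ m / D ≤ m / 2 := by
    intro D hD
    obtain ⟨h1, h2, h3⟩ := Finset.mem_filter.mp hD
    have h4 := (Nat.mem_divisors.mp h1).1
    have h5 : D ≤ q - 1 := Nat.le_of_dvd (by omega) h3
    refine ⟨h4, h2, by omega, Nat.div_pos (Nat.le_of_dvd (by omega) h4) (by omega),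
      Nat.div_le_div_left h2 (by omega)⟩
  have h1 : ∀ D ∈ s, (D ^ 2 - 1) * t (m / D) ≤ q ^ 2 * q ^ (m / D) := by
    intro D hD
    obtain ⟨_, _, h3, h4, _⟩ := hmem D hD
    apply Nat.mul_le_mul
    · exact le_trans (Nat.sub_le _ _) (Nat.pow_le_pow_left h3 2)
    · exact ht _ h4
  refine (Finset.sum_le_sum h1).trans ?_
  rw [← Finset.mul_sum]
  have hinj : Set.InjOn (fun D => m / D) (s : Set ℕ) := by
    intro D hD D' hD' h
    obtain ⟨h2, _, _, h5, _⟩ := hmem D hD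
    obtain ⟨h2', _, _, h5', _⟩ := hmem D' hD'
    have e1 := Nat.mul_div_cancel' h2
    have e2 := Nat.mul_div_cancel' h2'
    simp only at h
    rw [← h] at e2
    exact Nat.eq_of_mul_eq_mul_right h5 (e1.trans e2.symm)
  have h2 : ∑ D ∈ s, q ^ (m / D) = ∑ k ∈ s.image (fun D => m / D), q ^ k :=
    (Finset.sum_image hinj).symm
  rw [h2]
  have h3 : ∑ k ∈ s.image (fun D => m / D), q ^ k < q ^ (m / 2 + 1) := by
    apply Nat.geomSum_lt hq
    intro k hk
    obtain ⟨D, hD, rfl⟩ := Finset.mem_image.mp hk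
    have := (hmem D hD).2.2.2.2
    omega
  calc q ^ 2 * ∑ k ∈ s.image (fun D => m / D), q ^ k ≤ q ^ 2 * q ^ (m / 2 + 1) :=
        Nat.mul_le_mul_left _ h3.le
    _ = q ^ (m / 2 + 3) := by ring

/-- The bound for degree at least three, in additive form. -/
lemma Gb_add (q : ℕ) (t : ℕ → ℕ) (hq : 2 ≤ q) (hb : TB q t) (n : ℕ) (hn : 3 ≤ n) :
    Gb q t n + 3 * q ^ (n - 2) ≤ (q ^ 2 + 2 * q) * q ^ (n - 2) := by
  obtain ⟨k, rfl⟩ : ∃ k, n = k + 2 := ⟨n - 2, by omega⟩
  simp only [Nat.add_sub_cancel]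
  unfold Gb
  by_cases h7 : 5 ≤ k
  · -- the generic case
    have h1 := hb.pow (k + 2) (by omega)
    have h2 := PP_le q t (k + 2) (by omega) hq hb.pow
    have e1 : q ^ (k + 2) = q ^ 2 * q ^ k := by ring
    set y := q ^ k with hy
    by_cases hq3 : q = 2
    · subst hq3
      have h0 : PP 2 t (k + 2) = 0 := by
        unfold PP Dset
        simp
      rw [h0]
      rw [e1] at h1
      norm_num at h1 ⊢
      omega
    · have hq3' : 3 ≤ q := by omega
      have h3 : q ^ ((k + 2) / 2 + 3) ≤ q * y := by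
        have h4 : (k + 2) / 2 + 3 ≤ k + 1 := by omega
        calc q ^ ((k + 2) / 2 + 3) ≤ q ^ (k + 1) := Nat.pow_le_pow_right (by omega) h4
          _ = q * y := by rw [hy]; ring
      have h5 : 3 * y ≤ q * y := Nat.mul_le_mul_right _ hq3'
      calc t (k + 2) + PP q t (k + 2) + 3 * y ≤ q ^ 2 * y + q * y + q * y := by
            rw [e1] at h1
            omega
        _ = _ := by ring
  · have hk : k = 1 ∨ k = 2 ∨ k = 3 ∨ k = 4 := by omega
    have h1 := hb.one
    have h2 := hb.two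
    have h3 := hb.three
    rcases hk with rfl | rfl | rfl | rfl
    · -- n = 3
      rw [PP_three q t hq]
      norm_num
      split_ifs with hd
      · have hq4 : 4 ≤ q := by
          have := Nat.le_of_dvd (by omega) hd
          omega
        nlinarith
      · nlinarith
    · -- n = 4
      have h4 := hb.pow 4 (by omega)
      rw [PP_four q t hq]
      norm_num
      have hq2 : 2 * q ^ 2 ≤ q ^ 3 := by nlinarith [sq_nonneg q]
      by_cases hd : 2 ∣ q - 1
      · have hq3 : 3 ≤ q := by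
          have := Nat.le_of_dvd (by omega) hd
          omega
        have hq2' : 3 * q ^ 2 ≤ q ^ 3 := by nlinarith [sq_nonneg q]
        by_cases hd' : 4 ∣ q - 1
        · have hq5 : 5 ≤ q := by
            have := Nat.le_of_dvd (by omega) hd'
            omega
          simp only [hd, hd', if_true]
          have h5 : 5 * q ^ 2 ≤ q ^ 3 := by nlinarith [sq_nonneg q]
          have h6 : 5 * q ≤ q ^ 2 := by nlinarith
          nlinarith
        · simp only [hd, hd', if_true, if_false]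
          nlinarith
      · have hd' : ¬ 4 ∣ q - 1 := fun h => hd (Dvd.dvd.trans (by norm_num) h)
        simp only [hd, hd', if_false]
        nlinarith
    · -- n = 5
      have h4 := hb.pow 5 (by omega)
      rw [PP_five q t hq]
      norm_num
      have hq2 : 2 * q ^ 3 ≤ q ^ 4 := by nlinarith [sq_nonneg (q ^ 2), pow_pos (show 0 < q by omega) 3]
      split_ifs with hd
      · have hq6 : 6 ≤ q := by
          have := Nat.le_of_dvd (by omega) hd
          omega
        have h5 : 6 * q ^ 3 ≤ q ^ 4 := by nlinarith [pow_pos (show 0 < q by omega) 3]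
        have h6 : 6 * q ^ 2 ≤ q ^ 3 := by nlinarith [pow_pos (show 0 < q by omega) 2]
        have h7 : 6 * q ≤ q ^ 2 := by nlinarith
        nlinarith
      · nlinarith
    · -- n = 6
      have h4 := hb.pow 6 (by omega)
      rw [PP_six q t hq]
      norm_num
      have hq2 : 2 * q ^ 4 ≤ q ^ 5 := by nlinarith [pow_pos (show 0 < q by omega) 4]
      by_cases hd : 2 ∣ q - 1 <;> by_cases hd3 : 3 ∣ q - 1 <;> by_cases hd6 : 6 ∣ q - 1
      · have hq7 : 7 ≤ q := by
          have := Nat.le_of_dvd (by omega) hd6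
          omega
        simp only [hd, hd3, hd6, if_true]
        have h5 : 7 * q ^ 4 ≤ q ^ 5 := by nlinarith [pow_pos (show 0 < q by omega) 4]
        have h6 : 7 * q ^ 3 ≤ q ^ 4 := by nlinarith [pow_pos (show 0 < q by omega) 3]
        have h7 : 7 * q ^ 2 ≤ q ^ 3 := by nlinarith [pow_pos (show 0 < q by omega) 2]
        have h8 : 7 * q ≤ q ^ 2 := by nlinarith
        nlinarith
      · exact absurd (Nat.Coprime.mul_dvd_of_dvd_of_dvd (by norm_num : Nat.Coprime 2 3) hd hd3) hd6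
      · exact absurd (Dvd.dvd.trans (by norm_num : 3 ∣ 6) hd6) hd3
      · simp only [hd, hd3, hd6, if_true, if_false]
        have hq3 : 3 ≤ q := by
          have := Nat.le_of_dvd (by omega) hd
          omega
        have h5 : 3 * q ^ 4 ≤ q ^ 5 := by nlinarith [pow_pos (show 0 < q by omega) 4]
        have h6 : 3 * q ^ 3 ≤ q ^ 4 := by nlinarith [pow_pos (show 0 < q by omega) 3]
        nlinarith
      · exact absurd (Dvd.dvd.trans (by norm_num : 2 ∣ 6) hd6) hd
      · simp only [hd, hd3, hd6, if_true, if_false]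
        have hq4 : 4 ≤ q := by
          have := Nat.le_of_dvd (by omega) hd3
          omega
        have h5 : 4 * q ^ 4 ≤ q ^ 5 := by nlinarith [pow_pos (show 0 < q by omega) 4]
        have h6 : 4 * q ^ 3 ≤ q ^ 4 := by nlinarith [pow_pos (show 0 < q by omega) 3]
        have h7 : 4 * q ^ 2 ≤ q ^ 3 := by nlinarith [pow_pos (show 0 < q by omega) 2]
        nlinarith
      · exact absurd (Dvd.dvd.trans (by norm_num : 2 ∣ 6) hd6) hd
      · simp only [hd, hd3, hd6, if_false]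
        nlinarith

/-- The bound for degree at least three. -/
theorem Gb_le (q : ℕ) (t : ℕ → ℕ) (hq : 2 ≤ q) (hb : TB q t) (n : ℕ) (hn : 3 ≤ n) :
    Gb q t n ≤ (q - 1) * ((q + 3) * q ^ (n - 2)) := by
  have h := Gb_add q t hq hb n hn
  obtain ⟨p, rfl⟩ : ∃ p, q = p + 1 := ⟨q - 1, by omega⟩
  simp only [Nat.add_sub_cancel]
  have e : ((p + 1) ^ 2 + 2 * (p + 1)) * (p + 1) ^ (n - 2) = p * ((p + 1 + 3) * (p + 1) ^ (n - 2)) + 3 * (p + 1) ^ (n - 2) := by
    ring
  omega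

lemma Gb_one (q : ℕ) (t : ℕ → ℕ) (hq : 2 ≤ q) (hb : TB q t) : Gb q t 1 + 1 ≤ q := by
  unfold Gb
  rw [PP_one q t hq]
  have := hb.one
  omega

lemma Gb_two (q : ℕ) (t : ℕ → ℕ) (hq : 2 ≤ q) (hb : TB q t) :
    Gb q t 2 + 1 + (if 2 ∣ q - 1 then 3 else 0) ≤ q ^ 2 + (if 2 ∣ q - 1 then 3 * q else 0) := by
  unfold Gb
  rw [PP_two q t hq]
  have := hb.one
  have := hb.two
  split_ifs <;> omega

/-- For small quotient degrees: the bound used for the nontrivial central elements. -/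
lemma Gb_central (q : ℕ) (t : ℕ → ℕ) (hq : 2 ≤ q) (hb : TB q t) (m n : ℕ) (hm : 1 ≤ m) (hmn : 2 * m ≤ n) (hn : 3 ≤ n) :
    Gb q t m ≤ 2 * q ^ (n - 2) := by
  have hqpos : 0 < q := by omega
  by_cases h1 : m = 1
  · subst h1
    have := Gb_one q t hq hb
    have h2 : q ^ 1 ≤ q ^ (n - 2) := Nat.pow_le_pow_right hqpos (by omega)
    rw [pow_one] at h2
    omega
  by_cases h2 : m = 2
  · subst h2
    have h3 := Gb_two q t hq hb
    have h4 : q ^ 2 ≤ q ^ (n - 2) := Nat.pow_le_pow_right hqpos (by omega)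
    split_ifs at h3 with hd
    · have hq3 : 3 ≤ q := by
        have := Nat.le_of_dvd (by omega) hd
        omega
      have h5 : 3 * q ≤ q ^ 2 + 3 := by nlinarith [sq_nonneg (q - 2 : ℤ)]
      omega
    · have : 0 < q ^ 2 := by positivity
      omega
  · have hm3 : 3 ≤ m := by omega
    have h3 := Gb_le q t hq hb m hm3
    have h4 : (q - 1) * ((q + 3) * q ^ (m - 2)) ≤ 2 * q ^ m := by
      obtain ⟨p, rfl⟩ : ∃ p, q = p + 1 := ⟨q - 1, by omega⟩
      obtain ⟨k, rfl⟩ : ∃ k, m = k + 2 := ⟨m - 2, by omega⟩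
      simp only [Nat.add_sub_cancel]
      have hy : 0 < (p + 1) ^ k := by positivity
      have e : 2 * (p + 1) ^ (k + 2) = (2 * (p + 1) ^ 2) * (p + 1) ^ k := by ring
      have e2 : p * ((p + 1 + 3) * (p + 1) ^ k) = (p * (p + 4)) * (p + 1) ^ k := by ring
      rw [e, e2]
      apply Nat.mul_le_mul_right
      nlinarith
    have h5 : q ^ m ≤ q ^ (n - 2) := Nat.pow_le_pow_right hqpos (by omega)
    omega

end Cfsg.Agent.Lib.SLCount
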