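import Mathlib
import Cfsg.Agent.Lib.SLCountNum2

/-!
# The lower bound on the class number of `SL_n(q)`, and the final upper bounds
-/

set_option autoImplicit false
set_option linter.unusedSectionVars false

namespace Cfsg.Agent.Lib.SLCount

open Polynomial Finset Module
open Cfsg.Agent.Lib.GLCount

universe u

variable {F : Type u} [Field F] [Fintype F]

lemma charpoly_eq_of_isConj {n : ℕ} {a b : Matrix.SpecialLinearGroup (Fin n) F} (h : IsConj a b) :
    (a : Matrix (Fin n) (Fin n) F).charpoly = (b : Matrix (Fin n) (Fin n) F).charpoly := by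
  obtain ⟨c, rfl⟩ := isConj_iff.mp h
  have h1 := Matrix.charpoly_units_conj (Matrix.SpecialLinearGroup.toGL c) (a : Matrix (Fin n) (Fin n) F)
  have h2 : ((Matrix.SpecialLinearGroup.toGL c : GL (Fin n) F) : Matrix (Fin n) (Fin n) F)⁻¹ =
      ((c⁻¹ : Matrix.SpecialLinearGroup (Fin n) F) : Matrix (Fin n) (Fin n) F) := by
    apply Matrix.inv_eq_left_inv
    show ((c⁻¹ : Matrix.SpecialLinearGroup (Fin n) F) : Matrix (Fin n) (Fin n) F) * (c : Matrix (Fin n) (Fin n) F) = 1
    rw [← Matrix.SpecialLinearGroup.coe_mul, inv_mul_cancel, Matrix.SpecialLinearGroup.coe_one]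
  rw [← h1, h2]
  rfl

/-- Elements with a prescribed characteristic polynomial. -/
lemma exists_sl_charpoly (k : ℕ) (v : Fin k → F) :
    ∃ g : Matrix.SpecialLinearGroup (Fin (k + 1)) F,
      (g : Matrix (Fin (k + 1)) (Fin (k + 1)) F).charpoly = polyOfVec (Fin.cons ((-1) ^ (k + 1)) v : Fin (k + 1) → F) := by
  set w : Fin (k + 1) → F := Fin.cons ((-1) ^ (k + 1)) v with hw
  obtain ⟨A, hA⟩ := exists_charpoly' (polyOfVec w) (polyOfVec_monic w) _ (polyOfVec_natDegree w)
  have hdet : A.det = 1 := by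
    rw [Matrix.det_eq_sign_charpoly_coeff, hA]
    have h0 : (polyOfVec w).coeff 0 = w 0 := polyOfVec_coeff w 0
    rw [h0, hw]
    simp only [Fin.cons_zero, Fintype.card_fin]
    rw [← mul_pow]
    simp
  exact ⟨⟨A, hdet⟩, hA⟩

/-- The lower bound. -/
theorem lt_card_classes (n : ℕ) (hn : 2 ≤ n) :
    Fintype.card F ^ (n - 1) < Nat.card (ConjClasses (Matrix.SpecialLinearGroup (Fin n) F)) := by
  classical
  obtain ⟨k, rfl⟩ : ∃ k, n = k + 1 := ⟨n - 1, by omega⟩
  simp only [Nat.add_sub_cancel]
  choose g hg using exists_sl_charpoly (F := F) k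
  haveI : Fintype (ConjClasses (Matrix.SpecialLinearGroup (Fin (k + 1)) F)) := Fintype.ofFinite _
  rw [Nat.card_eq_fintype_card]
  have hcard : Fintype.card F ^ k = Fintype.card (Fin k → F) := by simp
  rw [hcard]
  have hinj : ∀ v w : Fin k → F, polyOfVec (Fin.cons ((-1) ^ (k + 1)) v : Fin (k + 1) → F) =
      polyOfVec (Fin.cons ((-1) ^ (k + 1)) w : Fin (k + 1) → F) → v = w := by
    intro v w h
    funext i
    have h1 := polyOfVec_coeff (Fin.cons ((-1) ^ (k + 1)) v : Fin (k + 1) → F) (Fin.succ i)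
    have h2 := polyOfVec_coeff (Fin.cons ((-1) ^ (k + 1)) w : Fin (k + 1) → F) (Fin.succ i)
    rw [h] at h1
    simpa [h1] using (h2.symm.trans h1).symm
  apply Fintype.card_lt_of_injective_not_surjective (fun v => ConjClasses.mk (g v))
  · intro v w h
    apply hinj
    rw [← hg, ← hg]
    exact charpoly_eq_of_isConj (ConjClasses.mk_eq_mk_iff_isConj.mp h)
  · intro hs
    have hk : 1 ≤ k := by omega
    let i : Fin (k + 1) := 0
    let j : Fin (k + 1) := ⟨1, by omega⟩
    have hij : i ≠ j := by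
      intro h
      have := congrArg Fin.val h
      simp [i, j] at this
    let t : Matrix.SpecialLinearGroup (Fin (k + 1)) F :=
      ⟨Matrix.transvection i j 1, Matrix.det_transvection_of_ne i j hij 1⟩
    have ht : t ≠ 1 := by
      intro h
      have h1 := congrArg (fun x : Matrix.SpecialLinearGroup (Fin (k + 1)) F => (x : Matrix _ _ F) i j) h
      simp [t, Matrix.transvection, hij] at h1
    have hcp1 : ((1 : Matrix.SpecialLinearGroup (Fin (k + 1)) F) : Matrix (Fin (k + 1)) (Fin (k + 1)) F).charpoly = (X - 1) ^ (k + 1) := by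
      rw [Matrix.SpecialLinearGroup.coe_one, Matrix.charpoly_one]
      simp
    have hcp2 : (t : Matrix (Fin (k + 1)) (Fin (k + 1)) F).charpoly = (X - 1) ^ (k + 1) := by
      have hup : (t : Matrix (Fin (k + 1)) (Fin (k + 1)) F).IsUpperTriangular := by
        intro a b hab
        have hab' : b < a := hab
        show (Matrix.transvection i j (1 : F)) a b = 0
        unfold Matrix.transvection
        rw [Matrix.add_apply, Matrix.one_apply_ne (ne_of_gt hab'), zero_add]
        rw [Matrix.single_apply_of_ne]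
        rintro ⟨h1, h2⟩
        have h3 : (a : ℕ) = 0 := by rw [← h1]; rfl
        have h4 : (a : ℕ) > b := hab'
        omega
      rw [Matrix.charpoly_of_isUpperTriangular _ hup]
      have : ∀ a, (t : Matrix (Fin (k + 1)) (Fin (k + 1)) F) a a = 1 := by
        intro a
        show (Matrix.transvection i j (1 : F)) a a = 1
        unfold Matrix.transvection
        rw [Matrix.add_apply, Matrix.one_apply_eq, Matrix.single_apply_of_ne]
        · simp
        · rintro ⟨h1, h2⟩
          exact hij (h1.trans h2.symm)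
      simp [this]
    obtain ⟨v, hv⟩ := hs (ConjClasses.mk 1)
    obtain ⟨w, hw⟩ := hs (ConjClasses.mk t)
    have h1 := charpoly_eq_of_isConj (ConjClasses.mk_eq_mk_iff_isConj.mp hv)
    have h2 := charpoly_eq_of_isConj (ConjClasses.mk_eq_mk_iff_isConj.mp hw)
    rw [hg, hcp1] at h1
    rw [hg, hcp2] at h2
    have h3 : v = w := hinj v w (h1.trans h2.symm)
    subst h3
    have h4 : (ConjClasses.mk (1 : Matrix.SpecialLinearGroup (Fin (k + 1)) F)) = ConjClasses.mk t := hv.symm.trans hw
    have h5 := ConjClasses.mk_eq_mk_iff_isConj.mp h4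
    exact ht (isConj_one_right.mp h5)

/-- The table of counts. -/
lemma tb_TT : TB (Fintype.card F) (fun m => (TT F m).card) :=
  ⟨fun _ hm => TT_card_le hm, TT_card_one, TT_card_two, TT_card_three⟩

lemma Gf_eq (m : ℕ) : Gf F m = Gb (Fintype.card F) (fun m => (TT F m).card) m := rfl

/-- All classes have an invariant. -/
lemma exists_tau (n : ℕ) : ∃ τ : Matrix.SpecialLinearGroup (Fin n) F → Fin n → F[X],
    (∀ s, HasInv (Matrix.SpecialLinearGroup.toGL s) (τ s)) ∧ ∀ s, IsW n (τ s) := by
  choose T hT hT1 hT2 using exists_inv (F := F) (n := n)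
  exact ⟨fun s => T (Matrix.SpecialLinearGroup.toGL s), fun s => hT _, fun s => ⟨hT1 _, hT2 _⟩⟩

/-- The upper bound on the class number. -/
theorem sl_card_bound (n : ℕ) (hn : 1 ≤ n) :
    (Fintype.card F - 1) * Nat.card (ConjClasses (Matrix.SpecialLinearGroup (Fin n) F)) ≤
      Gb (Fintype.card F) (fun m => (TT F m).card) n := by
  classical
  haveI : Fintype (ConjClasses (Matrix.SpecialLinearGroup (Fin n) F)) := Fintype.ofFinite _
  obtain ⟨τ, hτ, hτ'⟩ := exists_tau (F := F) n
  have h := main_bound (r := 1) le_rfl hn (one_dvd n) (Finset.univ : Finset (ConjClasses (Matrix.SpecialLinearGroup (Fin n) F))) τ hτ (by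
    intro c _
    obtain ⟨s, rfl⟩ := ConjClasses.mk_surjective c
    exact ⟨s, rfl, hτ' s, fun _ _ _ => one_dvd _⟩)
  rw [Nat.div_one, Finset.card_univ] at h
  rw [Nat.card_eq_fintype_card (α := ConjClasses (Matrix.SpecialLinearGroup (Fin n) F))]
  exact h

/-- The upper bound on the class number for `n ≥ 3`. -/
theorem sl_card_le (n : ℕ) (hn : 3 ≤ n) :
    Nat.card (ConjClasses (Matrix.SpecialLinearGroup (Fin n) F)) ≤ (Fintype.card F + 3) * Fintype.card F ^ (n - 2) := by
  have hq : 2 ≤ Fintype.card F := Fintype.one_lt_card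
  have h1 := sl_card_bound (F := F) n (by omega)
  have h2 := Gb_le _ _ hq tb_TT n hn
  exact Nat.le_of_mul_le_mul_left (h1.trans h2) (by omega)

/-- The case of `SL_2`. -/
theorem sl_two_card_le :
    Nat.card (ConjClasses (Matrix.SpecialLinearGroup (Fin 2) F)) ≤
      Fintype.card F + 1 + if 2 ∣ Fintype.card F - 1 then 3 else 0 := by
  have hq : 2 ≤ Fintype.card F := Fintype.one_lt_card
  have h1 := sl_card_bound (F := F) 2 (by omega)
  have h2 := Gb_two _ _ hq tb_TT
  set q := Fintype.card F with hq'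
  set k := Nat.card (ConjClasses (Matrix.SpecialLinearGroup (Fin 2) F))
  obtain ⟨p, hp⟩ : ∃ p, q = p + 1 := ⟨q - 1, by omega⟩
  rw [hp] at h1 h2 ⊢
  simp only [Nat.add_sub_cancel] at h1 h2 ⊢
  have hp0 : 0 < p := by omega
  refine Nat.le_of_mul_le_mul_left (h1.trans ?_) hp0
  split_ifs at h2 ⊢ <;> nlinarith

end Cfsg.Agent.Lib.SLCount
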