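import Mathlib
import Cfsg.Agent.Lib.SLCountLower

/-!
# Kernels of polynomials on primary modules, and the action of scalars on the invariants
-/

set_option autoImplicit false
set_option linter.unusedSectionVars false

namespace Cfsg.Agent.Lib.SLCount

open Polynomial Finset Module
open Cfsg.Agent.Lib.GLCount

universe u

variable {F : Type u} [Field F]

section kernel

/-- Kernel dimension of a polynomial on a module. -/
noncomputable def aa (p : F[X]) (M : Type*) [AddCommGroup M] [Module F M] [Module F[X] M] [IsScalarTower F F[X] M] : ℕ :=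
  finrank F (LinearMap.ker (act M p))

lemma aa_equiv {M M' : Type*} [AddCommGroup M] [Module F M] [Module F[X] M] [IsScalarTower F F[X] M]
    [AddCommGroup M'] [Module F M'] [Module F[X] M'] [IsScalarTower F F[X] M']
    (φ : M ≃ₗ[F[X]] M') (p : F[X]) : aa p M' = aa p M := by
  unfold aa
  have hk : LinearMap.ker (act M' p) = (LinearMap.ker (act M p)).map ((φ.restrictScalars F).toLinearMap) := by
    ext m
    simp only [LinearMap.mem_ker, act_apply, Submodule.mem_map]
    constructor
    · intro h
      obtain ⟨n, rfl⟩ := φ.surjective m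
      refine ⟨n, ?_, rfl⟩
      have h' : p • φ n = 0 := h
      apply φ.injective
      rw [map_smul, map_zero]
      exact h'
    · rintro ⟨n, hn, rfl⟩
      show p • φ n = 0
      rw [← map_smul, hn, map_zero]
  rw [hk]
  exact LinearEquiv.finrank_map_eq (φ.restrictScalars F) (LinearMap.ker (act M p))

lemma aa_pi {ι : Type u} [Fintype ι] (Q : ι → Type u) [∀ i, AddCommGroup (Q i)] [∀ i, Module F (Q i)]
    [∀ i, Module F[X] (Q i)] [∀ i, IsScalarTower F F[X] (Q i)] [∀ i, Module.Finite F (Q i)] (p : F[X]) :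
    aa p (∀ i, Q i) = ∑ i, aa p (Q i) := by
  unfold aa
  let E : LinearMap.ker (act (∀ i, Q i) p) ≃ₗ[F] ∀ i, LinearMap.ker (act (Q i) p) :=
    { toFun := fun v i => ⟨v.1 i, by
        have := congrFun (LinearMap.mem_ker.mp v.2) i
        exact LinearMap.mem_ker.mpr this⟩
      map_add' := fun _ _ => rfl
      map_smul' := fun _ _ => rfl
      invFun := fun w => ⟨fun i => (w i).1, by
        refine LinearMap.mem_ker.mpr ?_
        funext i
        exact LinearMap.mem_ker.mp (w i).2⟩
      left_inv := fun _ => rfl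
      right_inv := fun _ => rfl }
  rw [E.finrank_eq, Module.finrank_pi_fintype]

/-- The kernel of a polynomial on a cyclic module. -/
lemma aa_cyc {G h' p' p h : F[X]} (hG : G.Monic) (hh' : h'.Monic) (he : h = G * h') (hp : p = G * p')
    (hc : IsCoprime p' h') : aa p (Qf h) = G.natDegree := by
  subst he
  subst hp
  unfold aa
  haveI : Module.Finite F (Qf G) := Qf_finite hG
  haveI : Module.Finite F (Qf (G * h')) := Qf_finite (hG.mul hh')
  let α : Qf G →ₗ[F[X]] Qf (G * h') :=
    Submodule.mapQ _ _ (LinearMap.lsmul F[X] F[X] h') (by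
      intro a ha
      rw [Submodule.mem_span_singleton] at ha
      obtain ⟨c, rfl⟩ := ha
      rw [Submodule.mem_comap, Submodule.mem_span_singleton]
      exact ⟨c, by simp only [LinearMap.lsmul_apply, smul_eq_mul]; ring⟩)
  have hinj : Function.Injective (α.restrictScalars F) := by
    rw [← LinearMap.ker_eq_bot, LinearMap.ker_eq_bot']
    intro m hm
    obtain ⟨a, rfl⟩ := Submodule.Quotient.mk_surjective _ m
    have h3 : (Submodule.Quotient.mk (h' * a) : Qf (G * h')) = 0 := hm
    rw [Qf_mk_eq_zero] at h3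
    rw [Qf_mk_eq_zero]
    rw [mul_comm G h'] at h3
    exact (mul_dvd_mul_iff_left hh'.ne_zero).mp h3
  have hrange : LinearMap.ker (act (Qf (G * h')) (G * p')) = LinearMap.range (α.restrictScalars F) := by
    ext m
    obtain ⟨b, rfl⟩ := Submodule.Quotient.mk_surjective _ m
    rw [LinearMap.mem_ker, LinearMap.mem_range, act_apply, ← Submodule.Quotient.mk_smul, Qf_mk_eq_zero, smul_eq_mul]
    constructor
    · intro hd
      have h1 : h' ∣ p' * b := by
        have : G * h' ∣ G * (p' * b) := by
          rwa [mul_assoc] at hd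
        exact (mul_dvd_mul_iff_left hG.ne_zero).mp this
      have h2 : h' ∣ b := (hc.symm).dvd_of_dvd_mul_left h1
      obtain ⟨c, rfl⟩ := h2
      exact ⟨Submodule.Quotient.mk c, rfl⟩
    · rintro ⟨y, hy⟩
      obtain ⟨c, rfl⟩ := Submodule.Quotient.mk_surjective _ y
      have h3 : (Submodule.Quotient.mk (h' * c) : Qf (G * h')) = Submodule.Quotient.mk b := hy
      rw [Submodule.Quotient.eq, Submodule.mem_span_singleton] at h3
      obtain ⟨d, hd⟩ := h3
      rw [smul_eq_mul] at hd
      have h4 : b = h' * (c - d * G) := by linear_combination hd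
      rw [h4]
      exact ⟨p' * (c - d * G), by ring⟩
  rw [hrange, LinearMap.finrank_range_of_inj hinj]
  exact finrank_quotient_span_eq_natDegree

open Classical in
lemma aa_QQ {π : F[X]} (hπ : π.Monic) (hπ' : Irreducible π) {z : F[X] × ℕ} (hz : Good z) (j : ℕ) :
    aa (π ^ j) (QQ z) = if z.1 = π then π.natDegree * min j z.2 else 0 := by
  by_cases h : z.1 = π
  · rw [if_pos h]
    obtain ⟨π', e⟩ := z
    simp only at h
    subst h
    simp only
    show aa (π' ^ j) (Qf (π' ^ e)) = _
    by_cases hje : j ≤ e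
    · rw [min_eq_left hje, aa_cyc (G := π' ^ j) (h' := π' ^ (e - j)) (p' := 1) (hπ.pow j) (hπ.pow _)
        (by rw [← pow_add]; congr 1; omega) (by simp) isCoprime_one_left, natDegree_pow, mul_comm]
    · rw [min_eq_right (by omega), aa_cyc (G := π' ^ e) (h' := 1) (p' := π' ^ (j - e)) (hπ.pow e) monic_one
        (by simp) (by rw [← pow_add]; congr 1; omega) isCoprime_one_right, natDegree_pow, mul_comm]
  · rw [if_neg h]
    have h1 : IsCoprime π z.1 := by
      rw [hπ'.coprime_iff_not_dvd]
      intro hd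
      have h2 : Associated π z.1 := hπ'.associated_of_dvd hz.2.1 hd
      exact h (eq_of_monic_of_associated hz.1 hπ h2.symm)
    have h2 := aa_cyc (G := 1) (h' := z.1 ^ z.2) (p' := π ^ j) (p := π ^ j) (h := z.1 ^ z.2) monic_one (hz.1.pow _)
      (by simp) (by simp) (h1.pow)
    rw [natDegree_one] at h2
    exact h2

open Classical in
/-- The kernel dimension from a primary decomposition. -/
lemma aa_of_decomp [Finite F] {M : Type*} [AddCommGroup M] [Module F M] [Module F[X] M] [IsScalarTower F F[X] M]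
    {ι : Type u} [Fintype ι] (x : ι → F[X] × ℕ) (hx : ∀ i, Good (x i)) (φ : M ≃ₗ[F[X]] ∀ i, QQ (x i))
    {π : F[X]} (hπ : π.Monic) (hπ' : Irreducible π) (j : ℕ) :
    aa (π ^ j) M = π.natDegree * ∑ i, if (x i).1 = π then min j (x i).2 else 0 := by
  haveI : ∀ i, Module.Finite F (QQ (x i)) := fun i => finite_QQ _ (hx i)
  rw [← aa_equiv φ, aa_pi, Finset.mul_sum]
  apply Finset.sum_congr rfl
  intro i _
  rw [aa_QQ hπ hπ' (hx i)]
  split_ifs <;> simp

end kernel

section comb

lemma comb_key {α : Type*} (J : Finset α) (v : α → ℕ) (k : ℕ) :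
    ∑ i ∈ J, min (k + 1) (v i) = ∑ i ∈ J, min k (v i) + (J.filter fun i => k < v i).card := by
  rw [Finset.card_filter, ← Finset.sum_add_distrib]
  apply Finset.sum_congr rfl
  intro i _
  split_ifs <;> omega

lemma comb_split {α : Type*} (J : Finset α) (v : α → ℕ) (k : ℕ) :
    (J.filter fun i => k < v i).card = (J.filter fun i => v i = k + 1).card + (J.filter fun i => k + 1 < v i).card := by
  classical
  rw [← Finset.card_union_of_disjoint]
  · congr 1
    ext i
    simp only [Finset.mem_filter, Finset.mem_union]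
    constructor
    · rintro ⟨h1, h2⟩
      by_cases h3 : v i = k + 1
      · exact Or.inl ⟨h1, h3⟩
      · exact Or.inr ⟨h1, by omega⟩
    · rintro (⟨h1, h2⟩ | ⟨h1, h2⟩)
      · exact ⟨h1, by omega⟩
      · exact ⟨h1, by omega⟩
  · rw [Finset.disjoint_left]
    intro i h1 h2
    have := (Finset.mem_filter.mp h1).2
    have := (Finset.mem_filter.mp h2).2
    omega

/-- The partition is determined by the partial sums of `min`. -/
lemma comb {ι κ : Type*} (I : Finset ι) (I' : Finset κ) (u : ι → ℕ) (u' : κ → ℕ)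
    (h : ∀ j, ∑ i ∈ I, min j (u i) = ∑ i ∈ I', min j (u' i)) (e : ℕ) (he : 1 ≤ e) :
    (I.filter fun i => u i = e).card = (I'.filter fun i => u' i = e).card := by
  have hN : ∀ k, (I.filter fun i => k < u i).card = (I'.filter fun i => k < u' i).card := by
    intro k
    have h1 := comb_key I u k
    have h2 := comb_key I' u' k
    rw [h (k + 1), h k] at h1
    omega
  obtain ⟨k, rfl⟩ : ∃ k, e = k + 1 := ⟨e - 1, by omega⟩
  have h1 := comb_split I u k
  have h2 := comb_split I' u' k
  rw [hN k, hN (k + 1)] at h1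
  omega

end comb

section scale

/-- Scaling of the roots as a multiplicative equivalence. -/
noncomputable def sg (ζ : Fˣ) : F[X] ≃* F[X] where
  toFun p := p.scaleRoots (ζ : F)
  invFun p := p.scaleRoots ((ζ⁻¹ : Fˣ) : F)
  left_inv p := by
    ext i
    rw [coeff_scaleRoots, coeff_scaleRoots, natDegree_scaleRoots, mul_assoc, ← mul_pow]
    simp
  right_inv p := by
    ext i
    rw [coeff_scaleRoots, coeff_scaleRoots, natDegree_scaleRoots, mul_assoc, ← mul_pow]
    simp
  map_mul' p q := mul_scaleRoots_of_noZeroDivisors p q _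

lemma sg_apply (ζ : Fˣ) (p : F[X]) : sg ζ p = p.scaleRoots (ζ : F) := rfl

lemma sg_monic (ζ : Fˣ) {p : F[X]} : (sg ζ p).Monic ↔ p.Monic := monic_scaleRoots_iff _

lemma sg_natDegree (ζ : Fˣ) (p : F[X]) : (sg ζ p).natDegree = p.natDegree := natDegree_scaleRoots _ _

lemma sg_irreducible (ζ : Fˣ) {p : F[X]} : Irreducible (sg ζ p) ↔ Irreducible p :=
  MulEquiv.irreducible_iff (sg ζ)

/-- Evaluating a scaled polynomial. -/
lemma aeval_smul_sg {A : Type*} [Ring A] [Algebra F A] (ζ : Fˣ) (p : F[X]) (a : A) :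
    aeval ((ζ : F) • a) (sg ζ p) = (ζ : F) ^ p.natDegree • aeval a p := by
  rw [sg_apply, aeval_def, Algebra.smul_def, scaleRoots_eval₂_mul_of_commute, ← aeval_def, Algebra.smul_def, map_pow]
  · apply Algebra.commutes
  · intros
    rw [Commute, SemiconjBy, ← map_mul, ← map_mul, mul_comm]

variable {n : ℕ}

lemma aa_MM (g : Matrix (Fin n) (Fin n) F) (p : F[X]) :
    aa p (MM g) = finrank F (LinearMap.ker (aeval (Matrix.toLin' g) p)) := by
  unfold aa
  have hk : LinearMap.ker (act (MM g) p) =
      (LinearMap.ker (aeval (Matrix.toLin' g) p)).map (AEval'.of (Matrix.toLin' g)).toLinearMap := by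
    ext m
    obtain ⟨v, rfl⟩ := (AEval'.of (Matrix.toLin' g)).surjective m
    simp only [LinearMap.mem_ker, act_apply, Submodule.mem_map]
    constructor
    · intro h
      refine ⟨v, ?_, rfl⟩
      have h1 := congrArg (AEval'.of (Matrix.toLin' g)).symm h
      rw [Module.AEval.of_symm_smul] at h1
      simpa using h1
    · rintro ⟨w, hw, he⟩
      have hwv : w = v := (AEval'.of (Matrix.toLin' g)).injective he
      subst hwv
      rw [← Module.AEval.of_aeval_smul]
      rw [show (aeval (Matrix.toLin' g)) p • w = 0 from hw, map_zero]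
  rw [hk]
  exact LinearEquiv.finrank_map_eq (AEval'.of (Matrix.toLin' g)) (LinearMap.ker (aeval (Matrix.toLin' g) p))

/-- The kernels of a scaled polynomial at a scaled matrix are unchanged. -/
lemma aa_scale (g : Matrix (Fin n) (Fin n) F) (ζ : Fˣ) (p : F[X]) :
    aa (sg ζ p) (MM ((ζ : F) • g)) = aa p (MM g) := by
  rw [aa_MM, aa_MM, map_smul, aeval_smul_sg, LinearMap.ker_smul _ _ (pow_ne_zero _ ζ.ne_zero)]

/-- Conjugate elements have isomorphic modules. -/
lemma aa_conj {g g' : GL (Fin n) F} (h : IsConj g g') (p : F[X]) : aa p (MM g'.val) = aa p (MM g.val) := by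
  obtain ⟨c, rfl⟩ := isConj_iff.mp h
  rw [aa_MM, aa_MM]
  have h1 : Matrix.toLin' (c * g * c⁻¹).val = (Matrix.toLin' c.val) * (Matrix.toLin' g.val) * (Matrix.toLin' (c⁻¹).val) := by
    rw [Units.val_mul, Units.val_mul, Matrix.toLin'_mul, Matrix.toLin'_mul]
    rfl
  let e : (Fin n → F) ≃ₗ[F] (Fin n → F) :=
    { toLinearMap := Matrix.toLin' c.val
      invFun := Matrix.toLin' (c⁻¹).val
      left_inv := by
        intro v
        show (Matrix.toLin' (c⁻¹).val) (Matrix.toLin' c.val v) = v
        rw [← LinearMap.comp_apply, ← Matrix.toLin'_mul, ← Units.val_mul]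
        simp
      right_inv := by
        intro v
        show (Matrix.toLin' c.val) (Matrix.toLin' (c⁻¹).val v) = v
        rw [← LinearMap.comp_apply, ← Matrix.toLin'_mul, ← Units.val_mul]
        simp }
  have h2 : aeval (Matrix.toLin' (c * g * c⁻¹).val) p = (e.conjAlgEquiv F (aeval (Matrix.toLin' g.val) p)) := by
    have h3 : Matrix.toLin' (c * g * c⁻¹).val = e.conjAlgEquiv F (Matrix.toLin' g.val) := by
      rw [h1]
      apply LinearMap.ext
      intro v
      rfl
    rw [h3]
    exact aeval_algHom_apply (e.conjAlgEquiv F) _ p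
  rw [h2]
  have hk : LinearMap.ker (e.conjAlgEquiv F (aeval (Matrix.toLin' g.val) p)) =
      (LinearMap.ker (aeval (Matrix.toLin' g.val) p)).map e.toLinearMap := by
    ext v
    simp only [LinearMap.mem_ker, Submodule.mem_map]
    constructor
    · intro hv
      refine ⟨e.symm v, ?_, by simp⟩
      have h4 := congrArg e.symm hv
      simpa [LinearEquiv.conjAlgEquiv_apply] using h4
    · rintro ⟨w, hw, rfl⟩
      simp [LinearEquiv.conjAlgEquiv_apply, hw]
  rw [hk]
  exact LinearEquiv.finrank_map_eq e _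

/-- If a matrix is conjugate to a scalar multiple of itself, its invariant is fixed by the scaling. -/
theorem scale_fixed [Finite F] (g g' : GL (Fin n) F) (ζ : Fˣ) (hg' : g'.val = (ζ : F) • g.val) (hc : IsConj g g')
    (T : Fin n → F[X]) (h : HasInv g T) (e : Fin n) : sg ζ (T e) = T e := by
  classical
  obtain ⟨ι, fι, x, hx, ⟨φ⟩, hT⟩ := h
  have hS : ∀ (π : F[X]), π.Monic → Irreducible π → ∀ j : ℕ,
      ∑ i, (if (x i).1 = π then min j (x i).2 else 0) = ∑ i, (if (x i).1 = sg ζ π then min j (x i).2 else 0) := by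
    intro π hπ hπ' j
    have a1 := aa_of_decomp x hx φ hπ hπ' j
    have a2 := aa_of_decomp x hx φ ((sg_monic ζ).mpr hπ) ((sg_irreducible ζ).mpr hπ') j
    have a3 : aa ((sg ζ π) ^ j) (MM g.val) = aa (π ^ j) (MM g.val) := by
      rw [← map_pow, ← aa_conj hc, hg']
      exact aa_scale g.val ζ (π ^ j)
    rw [a3, a1, sg_natDegree] at a2
    exact Nat.eq_of_mul_eq_mul_left hπ'.natDegree_pos (by convert a2)
  have hcnt : ∀ (π : F[X]), π.Monic → Irreducible π → ∀ E : ℕ, 1 ≤ E →
      (univ.filter fun i => (x i).1 = π ∧ (x i).2 = E).card =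
        (univ.filter fun i => (x i).1 = sg ζ π ∧ (x i).2 = E).card := by
    intro π hπ hπ' E hE
    have h1 := comb (univ.filter fun i => (x i).1 = π) (univ.filter fun i => (x i).1 = sg ζ π)
      (fun i => (x i).2) (fun i => (x i).2) (by
        intro j
        rw [Finset.sum_filter, Finset.sum_filter]
        exact hS π hπ hπ' j) E hE
    rwa [Finset.filter_filter, Finset.filter_filter] at h1
  set m : Multiset F[X] := (univ.filter (fun i => (x i).2 = (e : ℕ) + 1)).val.map (fun i => (x i).1) with hm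
  have hTm : T e = m.prod := hT e
  have hcount : ∀ ρ : F[X], m.count ρ = (univ.filter fun i => (x i).1 = ρ ∧ (x i).2 = (e : ℕ) + 1).card := by
    intro ρ
    rw [hm, Multiset.count_map, Finset.card_def, Finset.filter_val, Finset.filter_val, Multiset.filter_filter]
    congr 2
    funext i
    simp only [eq_iff_iff]
    constructor
    · rintro ⟨h1, h2⟩
      exact ⟨h1.symm, h2⟩
    · rintro ⟨h1, h2⟩
      exact ⟨h1.symm, h2⟩
  have hmap : m.map (sg ζ) = m := by
    ext π'
    obtain ⟨ρ, rfl⟩ := (sg ζ).surjective π'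
    rw [Multiset.count_map_eq_count' _ _ (sg ζ).injective]
    by_cases hρ : ρ.Monic ∧ Irreducible ρ
    · rw [hcount, hcount]
      exact hcnt ρ hρ.1 hρ.2 _ (by omega)
    · rw [hcount, hcount]
      have h1 : (univ.filter fun i => (x i).1 = ρ ∧ (x i).2 = (e : ℕ) + 1) = ∅ := by
        apply Finset.filter_eq_empty_iff.mpr
        rintro i _ ⟨h2, -⟩
        exact hρ ⟨h2 ▸ (hx i).1, h2 ▸ (hx i).2.1⟩
      have h3 : (univ.filter fun i => (x i).1 = sg ζ ρ ∧ (x i).2 = (e : ℕ) + 1) = ∅ := by
        apply Finset.filter_eq_empty_iff.mpr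
        rintro i _ ⟨h2, -⟩
        exact hρ ⟨(sg_monic ζ).mp (h2 ▸ (hx i).1), (sg_irreducible ζ).mp (h2 ▸ (hx i).2.1)⟩
      rw [h1, h3]
  rw [hTm, map_multiset_prod, hmap]

/-- Fixed tuples are tuples of polynomials in `X ^ r`. -/
lemma Pr_of_fixed (T : Fin n → F[X]) (hT : IsTup T) (ζ : Fˣ) (hfix : ∀ e, sg ζ (T e) = T e) :
    Pr (orderOf ζ) T := by
  intro e i hi
  set f := T e with hf
  have h1 : ∀ k, f.coeff k ≠ 0 → orderOf ζ ∣ f.natDegree - k := by
    intro k hk
    apply orderOf_dvd_of_pow_eq_one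
    have h2 := congrArg (fun p : F[X] => p.coeff k) (hfix e)
    simp only [sg_apply, coeff_scaleRoots] at h2
    have h3 : (ζ : F) ^ (f.natDegree - k) = 1 := by
      apply mul_left_cancel₀ hk
      rw [mul_one]
      exact h2
    exact Units.ext (by simpa using h3)
  have h4 := h1 0 (hT e).2
  have h5 := h1 i hi
  rw [Nat.sub_zero] at h4
  have h6 : i ≤ f.natDegree := le_natDegree_of_ne_zero hi
  have h7 := Nat.dvd_sub h4 h5
  rwa [Nat.sub_sub_self h6] at h7

end scale

end Cfsg.Agent.Lib.SLCount
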