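import Mathlib
import Cfsg.Agent.Lib.OmSyl99

set_option autoImplicit false

namespace Cfsg.Agent.Lib.GLNum41

open Cfsg.Agent.Lib.OmSyl99

variable {q : ℕ}

/-- The `2`-adic value of `q^j - 1`. -/
def aa (q j : ℕ) : ℕ := padicValNat 2 (q ^ j - 1)

/-- The total. -/
def SS (q n : ℕ) : ℕ := ∑ j ∈ Finset.range n, aa q (j + 1)

theorem val_GL {F : Type*} [Field F] [Fintype F] (hF : Fintype.card F = q) (hq : Odd q) (n : ℕ) :
    (Nat.card (GL (Fin n) F)).factorization 2 = SS q n := by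
  have hq1 : 1 < q := by
    rw [← hF]
    exact Fintype.one_lt_card
  haveI : Fact (Nat.Prime 2) := ⟨Nat.prime_two⟩
  have hq0 : ∀ k, padicValNat 2 (q ^ k) = 0 := by
    intro k
    apply padicValNat.eq_zero_of_not_dvd
    intro h
    have := Nat.Prime.dvd_of_dvd_pow Nat.prime_two h
    obtain ⟨t, rfl⟩ := hq
    omega
  have hne : ∀ i ∈ Finset.range n, q ^ n - q ^ i ≠ 0 := by
    intro i hi
    have h1 : q ^ i < q ^ n := Nat.pow_lt_pow_right hq1 (Finset.mem_range.1 hi)
    omega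
  rw [Matrix.card_GL_field, hF, Fin.prod_univ_eq_prod_range (fun i => q ^ n - q ^ i) n,
    Nat.factorization_prod hne, Finsupp.finset_sum_apply]
  unfold SS
  rw [← Finset.sum_range_reflect]
  apply Finset.sum_congr rfl
  intro i hi
  have hi' := Finset.mem_range.1 hi
  have h1 : q ^ n - q ^ (n - 1 - i) = q ^ (n - 1 - i) * (q ^ (i + 1) - 1) := by
    rw [Nat.mul_sub, mul_one, ← pow_add]
    congr 2
    omega
  rw [Nat.factorization_def _ Nat.prime_two, h1, padicValNat.mul (pow_ne_zero _ (by omega))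
    (pow_sub_one_ne_zero hq1 (by omega)), hq0, zero_add, aa]

theorem SS_succ (n : ℕ) : SS q (n + 1) = SS q n + aa q (n + 1) := by
  simp [SS, Finset.sum_range_succ]

theorem val_fact_succ (n : ℕ) : padicValNat 2 (n + 1).factorial = padicValNat 2 n.factorial + padicValNat 2 (n + 1) := by
  haveI : Fact (Nat.Prime 2) := ⟨Nat.prime_two⟩
  rw [Nat.factorial_succ, padicValNat.mul (by omega) (Nat.factorial_ne_zero n)]
  ring

theorem q_pow_mod_one (h : q % 4 = 1) (j : ℕ) : q ^ j % 4 = 1 := by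
  rw [Nat.pow_mod, h]
  simp

theorem q_pow_odd_mod_three (h : q % 4 = 3) (j : ℕ) : q ^ (2 * j + 1) % 4 = 3 := by
  rw [pow_succ, pow_mul, Nat.mul_mod, Nat.pow_mod, Nat.pow_mod q 2, h]
  norm_num

theorem aa_odd_three (h : q % 4 = 3) (j : ℕ) : aa q (2 * j + 1) = 1 :=
  val_sub_of_three (q_pow_odd_mod_three h j)

theorem aa_even (hq : Odd q) (hq1 : 1 < q) {j : ℕ} (hj : j ≠ 0) : aa q (2 * j) = e0 q + padicValNat 2 j :=
  val_pow_two_mul hq hq1 hj

theorem e0_ge_three (h : q % 4 = 3) : 3 ≤ e0 q := by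
  haveI : Fact (Nat.Prime 2) := ⟨Nat.prime_two⟩
  unfold e0
  have h1 : padicValNat 2 (q - 1) = 1 := val_of_mod4 (by omega)
  have h2 : 2 ≤ padicValNat 2 (q + 1) := by
    have h3 : 2 ^ 2 ∣ q + 1 := by omega
    exact (padicValNat_dvd_iff_le (by omega)).1 h3
  omega

/-- Parity of the geometric sum. -/
theorem geom_mod (hq : Odd q) (j : ℕ) : (∑ i ∈ Finset.range j, q ^ i) % 2 = j % 2 := by
  induction j with
  | zero => simp
  | succ j ih =>
    rw [Finset.sum_range_succ, Nat.add_mod, ih]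
    have : q ^ j % 2 = 1 := Nat.odd_iff.1 hq.pow
    rw [this]
    omega

theorem aa_odd_one (hq1 : 1 < q) (h : q % 4 = 1) (j : ℕ) : aa q (2 * j + 1) = padicValNat 2 (q - 1) := by
  haveI : Fact (Nat.Prime 2) := ⟨Nat.prime_two⟩
  have hq : Odd q := Nat.odd_iff.2 (by omega)
  have h1 : (∑ i ∈ Finset.range (2 * j + 1), q ^ i) * (q - 1) = q ^ (2 * j + 1) - 1 :=
    geom_sum_mul_of_one_le hq1.le _
  have h2 := geom_mod hq (2 * j + 1)
  have h3 : ∑ i ∈ Finset.range (2 * j + 1), q ^ i ≠ 0 := by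
    intro h0
    rw [h0] at h2
    omega
  have h4 : q - 1 ≠ 0 := by omega
  unfold aa
  rw [← h1, padicValNat.mul h3 h4, padicValNat.eq_zero_of_not_dvd (n := ∑ i ∈ Finset.range (2 * j + 1), q ^ i) (by omega), zero_add]

/-- For `q ≡ 1 mod 4`. -/
theorem aa_one (hq1 : 1 < q) (h : q % 4 = 1) {j : ℕ} (hj : j ≠ 0) :
    aa q j = padicValNat 2 (q - 1) + padicValNat 2 j := by
  haveI : Fact (Nat.Prime 2) := ⟨Nat.prime_two⟩
  have hq : Odd q := Nat.odd_iff.2 (by omega)
  rcases Nat.even_or_odd' j with ⟨t, rfl | rfl⟩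
  · have ht : t ≠ 0 := by omega
    rw [aa_even hq hq1 ht, e0, val_of_mod4 (n := q + 1) (by omega), padicValNat.mul (by omega) ht]
    have : padicValNat 2 2 = 1 := padicValNat_self
    omega
  · rw [aa_odd_one hq1 h, padicValNat.eq_zero_of_not_dvd (n := 2 * t + 1) (by omega)]
    rfl

theorem SS_one_formula (hq1 : 1 < q) (h : q % 4 = 1) (n : ℕ) :
    SS q n = n * padicValNat 2 (q - 1) + padicValNat 2 n.factorial := by
  induction n with
  | zero => simp [SS]
  | succ n ih =>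
    rw [SS_succ, ih, aa_one hq1 h (by omega), val_fact_succ]
    ring

theorem SS_three_even (hq1 : 1 < q) (h : q % 4 = 3) (k : ℕ) :
    SS q (2 * k) = k * (1 + e0 q) + padicValNat 2 k.factorial := by
  have hq : Odd q := Nat.odd_iff.2 (by omega)
  induction k with
  | zero => simp [SS]
  | succ k ih =>
    have e : 2 * (k + 1) = 2 * k + 1 + 1 := by ring
    rw [e, SS_succ, SS_succ, ih, aa_odd_three h, ← e, aa_even hq hq1 (by omega), val_fact_succ]
    ring

theorem SS_three_odd (hq1 : 1 < q) (h : q % 4 = 3) (k : ℕ) :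
    SS q (2 * k + 1) = k * (1 + e0 q) + padicValNat 2 k.factorial + 1 := by
  rw [SS_succ, SS_three_even hq1 h, aa_odd_three h k]

theorem aa_ge (hq1 : 1 < q) (h : q % 4 = 3) {j : ℕ} (hj : j ≠ 0) : 1 + padicValNat 2 j ≤ aa q j := by
  haveI : Fact (Nat.Prime 2) := ⟨Nat.prime_two⟩
  have hq : Odd q := Nat.odd_iff.2 (by omega)
  rcases Nat.even_or_odd' j with ⟨t, rfl | rfl⟩
  · have ht : t ≠ 0 := by omega
    rw [aa_even hq hq1 ht, padicValNat.mul (by omega) ht]
    have : padicValNat 2 2 = 1 := padicValNat_self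
    have := e0_ge_three h
    omega
  · rw [aa_odd_three h, padicValNat.eq_zero_of_not_dvd (n := 2 * t + 1) (by omega)]

theorem aa_ge_even (hq1 : 1 < q) (h : q % 4 = 3) {j : ℕ} (hj : j ≠ 0) (hj2 : 2 ∣ j) :
    2 + padicValNat 2 j ≤ aa q j := by
  haveI : Fact (Nat.Prime 2) := ⟨Nat.prime_two⟩
  have hq : Odd q := Nat.odd_iff.2 (by omega)
  obtain ⟨t, rfl⟩ := hj2
  have ht : t ≠ 0 := by omega
  rw [aa_even hq hq1 ht, padicValNat.mul (by omega) ht]
  have : padicValNat 2 2 = 1 := padicValNat_self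
  have := e0_ge_three h
  omega

theorem val_fact_add_le (d m : ℕ) :
    padicValNat 2 d.factorial + padicValNat 2 m.factorial ≤ padicValNat 2 (d + m).factorial := by
  haveI : Fact (Nat.Prime 2) := ⟨Nat.prime_two⟩
  have h1 : d.factorial * m.factorial ∣ (d + m).factorial := Nat.factorial_mul_factorial_dvd_factorial_add d m
  have h2 := (padicValNat_dvd_iff_le (p := 2) (Nat.factorial_ne_zero (d + m))
    (n := padicValNat 2 (d.factorial * m.factorial))).1
    ((pow_padicValNat_dvd).trans h1)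
  rwa [padicValNat.mul (Nat.factorial_ne_zero _) (Nat.factorial_ne_zero _)] at h2

theorem SS_add_ge_aux (hq1 : 1 < q) (h : q % 4 = 3) (d m : ℕ) :
    SS q d + m + padicValNat 2 (d + m).factorial ≤ SS q (d + m) + padicValNat 2 d.factorial := by
  induction m with
  | zero => simp
  | succ m ih =>
    have e : d + (m + 1) = d + m + 1 := rfl
    rw [e, SS_succ, val_fact_succ]
    have := aa_ge hq1 h (j := d + m + 1) (by omega)
    omega

/-- The strict bound for `m ≥ 2`. -/
theorem SS_add_gt (hq1 : 1 < q) (h : q % 4 = 3) (d m : ℕ) (hm : 2 ≤ m) :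
    SS q d + m + padicValNat 2 m.factorial + 1 ≤ SS q (d + m) := by
  -- pick the even index among `d + 1, d + 2`
  have key : ∀ d' m', (2 ∣ d' + 1) → SS q d' + m' + 1 + 1 + padicValNat 2 (d' + 1 + m').factorial
      ≤ SS q (d' + 1 + m') + padicValNat 2 d'.factorial := by
    intro d' m' hd'
    have h1 := SS_add_ge_aux hq1 h (d' + 1) m'
    have h2 := aa_ge_even hq1 h (j := d' + 1) (by omega) hd'
    rw [SS_succ, val_fact_succ] at h1
    omega
  have h3 := val_fact_add_le d m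
  by_cases h2 : 2 ∣ d + 1
  · obtain ⟨m', rfl⟩ : ∃ m', m = m' + 1 := ⟨m - 1, by omega⟩
    have h1 := key d m' h2
    have e : d + 1 + m' = d + (m' + 1) := by ring
    rw [e] at h1
    omega
  · obtain ⟨m', rfl⟩ : ∃ m', m = m' + 1 + 1 := ⟨m - 2, by omega⟩
    have h4 : 2 ∣ d + 1 + 1 := by omega
    have h1 := key (d + 1) m' h4
    have e : d + 1 + 1 + m' = d + (m' + 1 + 1) := by ring
    rw [e] at h1
    have h5 := aa_ge hq1 h (j := d + 1) (by omega)
    rw [SS_succ, val_fact_succ] at h1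
    omega

end Cfsg.Agent.Lib.GLNum41
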