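import Mathlib
import Cfsg.Prelude.Def_Transfer

/-!
# A `p`-subgroup whose normalizer has full `p`-part is normal in Sylow subgroups
-/

set_option autoImplicit false

namespace Cfsg.Agent.Lib.SylNorm41

open Subgroup

universe u

variable {G : Type u} [Group G] [Finite G] {p : ℕ} [hp : Fact p.Prime]

/-- A normal `p`-subgroup lies in every Sylow subgroup. -/
theorem le_of_normal' {H : Type*} [Group H] [Finite H] (Q : Sylow p H) (A : Subgroup H) [A.Normal]
    (hA : IsPGroup p A) : A ≤ Q := by
  have h1 : IsPGroup p ↥((Q : Subgroup H) ⊔ A) := Q.isPGroup'.to_sup_of_normal_right hA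
  have h2 := Q.is_maximal' h1 le_sup_left
  rw [← h2]
  exact le_sup_right

theorem exists_sylow_normalizer (E : Subgroup G) (hE : IsPGroup p E)
    (h : (Nat.card G).factorization p ≤ (Nat.card (normalizer (E : Set G))).factorization p) :
    ∃ S : Sylow p G, E ≤ S ∧ (S : Subgroup G) ≤ normalizer (E : Set G) := by
  classical
  set N : Subgroup G := normalizer (E : Set G) with hN
  obtain ⟨Q⟩ : Nonempty (Sylow p N) := inferInstance
  have hcard : Nat.card Q = p ^ (Nat.card N).factorization p := Sylow.card_eq_multiplicity Q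
  let P : Subgroup G := (Q : Subgroup N).map N.subtype
  have hP : Nat.card P = Nat.card Q :=
    Nat.card_congr (Subgroup.equivMapOfInjective (Q : Subgroup N) N.subtype N.subtype_injective).toEquiv.symm
  have hdvd : Nat.card N ∣ Nat.card G := Subgroup.card_subgroup_dvd_card N
  have hle : (Nat.card N).factorization p ≤ (Nat.card G).factorization p :=
    (Nat.factorization_le_iff_dvd Nat.card_pos.ne' Nat.card_pos.ne').2 hdvd p
  have heq : (Nat.card N).factorization p = (Nat.card G).factorization p := le_antisymm hle h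
  have hPc : Nat.card P = p ^ (Nat.card G).factorization p := by
    rw [hP, hcard, heq]
  let S : Sylow p G := Sylow.ofCard P hPc
  have hSP : (S : Subgroup G) = P := Sylow.coe_ofCard P hPc
  refine ⟨S, ?_, ?_⟩
  · rw [hSP]
    have hEN : E ≤ N := Subgroup.le_normalizer
    haveI : (E.subgroupOf N).Normal := (Subgroup.normal_subgroupOf_iff_le_normalizer hEN).2 le_rfl
    have hEp : IsPGroup p (E.subgroupOf N) := by
      have := (Subgroup.subgroupOfEquivOfLe hEN).toEquiv
      intro x
      obtain ⟨k, hk⟩ := hE ⟨x.1.1, x.2⟩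
      refine ⟨k, ?_⟩
      apply Subtype.ext
      apply Subtype.ext
      have := congrArg Subtype.val hk
      simpa using this
    have h3 := le_of_normal' Q (E.subgroupOf N) hEp
    intro x hx
    exact ⟨⟨x, hEN hx⟩, h3 (by simpa [Subgroup.mem_subgroupOf] using hx), rfl⟩
  · rw [hSP]
    rintro _ ⟨x, -, rfl⟩
    exact x.2

/-- An elementary abelian subgroup whose normalizer has full `p`-part gives a normal subgroup of every
Sylow subgroup. -/
theorem exists_normal_elem {E : Subgroup G} (hE : IsPGroup p E) (hEl : Cfsg.IsElementaryAbelian p E)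
    (h : (Nat.card G).factorization p ≤ (Nat.card (normalizer (E : Set G))).factorization p)
    (S' : Sylow p G) :
    ∃ A : Subgroup ↥(S' : Subgroup G), A.Normal ∧ Cfsg.IsElementaryAbelian p A ∧ Nat.card A = Nat.card E := by
  classical
  obtain ⟨S, hES, hSN⟩ := exists_sylow_normalizer E hE h
  obtain ⟨x, rfl⟩ := MulAction.exists_smul_eq G S S'
  set c := (MulAut.conj x).toMonoidHom with hc
  have hcinj : Function.Injective c := (MulAut.conj x).injective
  set E1 : Subgroup G := E.map c with hE1
  have hcoe : ((x • S : Sylow p G) : Subgroup G) = (S : Subgroup G).map c := by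
    rw [Sylow.coe_subgroup_smul, Subgroup.pointwise_smul_def]
    rfl
  have hle : E1 ≤ ((x • S : Sylow p G) : Subgroup G) := by
    rw [hcoe]
    exact Subgroup.map_mono hES
  have hnorm : ((x • S : Sylow p G) : Subgroup G) ≤ normalizer (E1 : Set G) := by
    rw [hcoe]
    rintro _ ⟨s, hs, rfl⟩
    rw [Subgroup.mem_normalizer_iff]
    intro y
    have hs' := Subgroup.mem_normalizer_iff.1 (hSN hs)
    constructor
    · rintro ⟨z, hz, rfl⟩
      refine ⟨s * z * s⁻¹, (hs' z).1 hz, ?_⟩
      simp [hc, MulAut.conj_apply, mul_assoc]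
    · rintro ⟨z, hz, hzy⟩
      have h1 : s⁻¹ * z * s ∈ E := by
        have := (hs' (s⁻¹ * z * s)).2
        apply this
        have e : s * (s⁻¹ * z * s) * s⁻¹ = z := by group
        rwa [e]
      refine ⟨s⁻¹ * z * s, h1, ?_⟩
      simp only [hc, MulEquiv.coe_toMonoidHom, MulAut.conj_apply] at hzy ⊢
      have e2 : x * (s⁻¹ * z * s) * x⁻¹ = (x * s * x⁻¹)⁻¹ * (x * z * x⁻¹) * (x * s * x⁻¹) := by group
      rw [e2, hzy]
      group
  refine ⟨E1.subgroupOf _, (Subgroup.normal_subgroupOf_iff_le_normalizer hle).2 hnorm, ⟨?_, ?_⟩, ?_⟩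
  · constructor
    constructor
    rintro ⟨⟨a, ha⟩, ha'⟩ ⟨⟨b, hb⟩, hb'⟩
    obtain ⟨a', ha1, rfl⟩ : a ∈ E1 := by simpa [Subgroup.mem_subgroupOf] using ha'
    obtain ⟨b', hb1, rfl⟩ : b ∈ E1 := by simpa [Subgroup.mem_subgroupOf] using hb'
    have h3 : a' * b' = b' * a' := by
      have := hEl.1.is_comm.comm (⟨a', ha1⟩ : E) ⟨b', hb1⟩
      exact congrArg Subtype.val this
    apply Subtype.ext
    apply Subtype.ext
    simp only [Subgroup.coe_mul]
    rw [← map_mul, ← map_mul, h3]
  · rintro ⟨a, ha⟩ ha'
    obtain ⟨a', ha1, rfl⟩ : a ∈ E1 := by simpa [Subgroup.mem_subgroupOf] using ha'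
    apply Subtype.ext
    simp only [Subgroup.coe_pow, Subgroup.coe_one]
    rw [← map_pow, hEl.2 a' ha1, map_one]
  · rw [Nat.card_congr (Subgroup.subgroupOfEquivOfLe hle).toEquiv]
    exact Nat.card_congr (Subgroup.equivMapOfInjective E c hcinj).toEquiv.symm

/-- A divisibility criterion for the order of a normalizer. -/
theorem card_dvd_normalizer (E : Subgroup G) {A B : Type*} [Group A] [Group B] [Finite A] [Finite B]
    (M : A →* normalizer (E : Set G)) (hM : Function.Injective M)
    (hMc : ∀ a, ((M a : normalizer (E : Set G)) : G) ∈ centralizer (E : Set G))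
    (P : B →* normalizer (E : Set G)) (hP : Function.Injective (E.normalizerMonoidHom.comp P)) :
    Nat.card A * Nat.card B ∣ Nat.card (normalizer (E : Set G)) := by
  classical
  set φ := E.normalizerMonoidHom with hφ
  have h1 := Subgroup.card_mul_index φ.ker
  rw [Subgroup.index_ker] at h1
  rw [← h1]
  apply Nat.mul_dvd_mul
  · have h2 : M.range ≤ φ.ker := by
      rintro _ ⟨a, rfl⟩
      rw [hφ, Subgroup.normalizerMonoidHom_ker, Subgroup.mem_subgroupOf]
      exact hMc a
    have h3 := Subgroup.card_dvd_of_le h2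
    rwa [Nat.card_congr (MonoidHom.ofInjective hM).toEquiv.symm] at h3
  · have h2 : (φ.comp P).range ≤ φ.range := by
      rintro _ ⟨a, rfl⟩
      exact ⟨P a, rfl⟩
    have h3 := Subgroup.card_dvd_of_le h2
    rwa [Nat.card_congr (MonoidHom.ofInjective hP).toEquiv.symm] at h3

end Cfsg.Agent.Lib.SylNorm41
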