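import Mathlib
import Cfsg.Agent.Lib.GLNum41
import Cfsg.Agent.Lib.ElemEig41
import Cfsg.Agent.Lib.SylNorm41
import Cfsg.Agent.Lib.OmSyl99
import Cfsg.Prelude.Def_Transfer

/-!
# Normal elementary abelian subgroups of Sylow `2`-subgroups of `GL_n(q)`, `q` odd
-/

set_option autoImplicit false

namespace Cfsg.Agent.Lib.GLNorm41

open Module Equiv
open Cfsg.Agent.Lib.GLNum41 Cfsg.Agent.Lib.ElemEig41 Cfsg.Agent.Lib.SylNorm41
open Cfsg.Agent.Lib.OmSyl99

variable {F V : Type*} [Field F] [AddCommGroup V] [Module F V]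

/-- The general linear group of a space with a basis. -/
noncomputable def theta {n : ℕ} (b : Basis (Fin n) F V) : (V ≃ₗ[F] V) ≃* GL (Fin n) F :=
  (LinearMap.GeneralLinearGroup.generalLinearEquiv F V).symm.trans
    (Units.mapEquiv (LinearMap.toMatrixAlgEquiv b).toMulEquiv)

theorem card_units_end (L : Type*) [AddCommGroup L] [Module F L] [FiniteDimensional F L] :
    Nat.card (Module.End F L)ˣ = Nat.card (GL (Fin (finrank F L)) F) :=
  Nat.card_congr (Units.mapEquiv (LinearMap.toMatrixAlgEquiv (Module.finBasis F L)).toMulEquiv).toEquiv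

section stab

variable {Γ : Type*} [Group Γ]

/-- The restriction to an invariant subspace. -/
noncomputable def resHom {K : Type*} [Group K] (ρ : K →* (V ≃ₗ[F] V)) (p : Submodule F V)
    (h : ∀ s x, x ∈ p → ρ s x ∈ p) : K →* Module.End F p where
  toFun s := ((ρ s : V ≃ₗ[F] V) : V →ₗ[F] V).restrict (h s)
  map_one' := by
    ext x
    simp
  map_mul' s t := by
    ext x
    simp [LinearEquiv.mul_apply]

theorem resHom_apply {K : Type*} [Group K] (ρ : K →* (V ≃ₗ[F] V)) (p : Submodule F V)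
    (h : ∀ s x, x ∈ p → ρ s x ∈ p) (s : K) (x : p) : ((resHom ρ p h s) x : V) = ρ s x := rfl

theorem stab_dvd [Finite Γ] [Finite F] [FiniteDimensional F V] (ρ : Γ →* (V ≃ₗ[F] V))
    (hρ : Function.Injective ρ) {J : Type*} [Fintype J] [DecidableEq J] (π : Γ →* Perm J)
    (L : J → Submodule F V) (W' : Submodule F V)
    (hL : ∀ s j x, x ∈ L j → ρ s x ∈ L (π s j)) (hW : ∀ s x, x ∈ W' → ρ s x ∈ W')
    (hsup : (⨆ j, L j) ⊔ W' = ⊤) :
    Nat.card Γ ∣ (Fintype.card J).factorial *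
      ((∏ j, Nat.card (Module.End F (L j))ˣ) * Nat.card (Module.End F W')ˣ) := by
  haveI : Finite V := Module.finite_of_finite F
  have h1 := Subgroup.card_mul_index π.ker
  rw [Subgroup.index_ker] at h1
  rw [← h1, mul_comm]
  apply Nat.mul_dvd_mul
  · have := Subgroup.card_subgroup_dvd_card π.range
    rwa [Nat.card_eq_fintype_card (α := Perm J), Fintype.card_perm] at this
  · let ρK : π.ker →* (V ≃ₗ[F] V) := ρ.comp π.ker.subtype
    have hLK : ∀ j (s : π.ker) x, x ∈ L j → ρK s x ∈ L j := by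
      intro j s x hx
      have := hL s.1 j x hx
      have h2 : π s.1 = 1 := s.2
      rw [h2] at this
      exact this
    have hWK : ∀ (s : π.ker) x, x ∈ W' → ρK s x ∈ W' := fun s x hx => hW s.1 x hx
    let Ψ : π.ker →* (∀ j, (Module.End F (L j))ˣ) × (Module.End F W')ˣ :=
      MonoidHom.prod (Pi.monoidHom fun j => (resHom ρK (L j) (hLK j)).toHomUnits)
        (resHom ρK W' hWK).toHomUnits
    have hΨ : Function.Injective Ψ := by
      rw [injective_iff_map_eq_one]
      intro s hs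
      have hs1 : ∀ j, (resHom ρK (L j) (hLK j)).toHomUnits s = 1 := fun j =>
        congrFun (congrArg Prod.fst hs) j
      have hs2 : (resHom ρK W' hWK).toHomUnits s = 1 := congrArg Prod.snd hs
      have hA : ∀ j, ∀ x ∈ L j, ρ s.1 x = x := by
        intro j x hx
        have h3 := congrArg (fun u : (Module.End F (L j))ˣ => ((u : Module.End F (L j)) ⟨x, hx⟩ : V)) (hs1 j)
        exact h3
      have hB : ∀ x ∈ W', ρ s.1 x = x := by
        intro x hx
        have h3 := congrArg (fun u : (Module.End F W')ˣ => ((u : Module.End F W') ⟨x, hx⟩ : V)) hs2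
        exact h3
      have hC : (⊤ : Submodule F V) ≤ LinearMap.eqLocus ((ρ s.1 : V ≃ₗ[F] V) : V →ₗ[F] V) LinearMap.id := by
        rw [← hsup]
        apply sup_le
        · apply iSup_le
          intro j x hx
          exact hA j x hx
        · intro x hx
          exact hB x hx
      have hD : ρ s.1 = 1 := by
        apply LinearEquiv.ext
        intro x
        exact hC (Submodule.mem_top (x := x))
      apply Subtype.ext
      apply hρ
      show ρ s.1 = ρ 1
      rw [hD, map_one]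
    have h3 := Subgroup.card_dvd_of_injective Ψ hΨ
    rwa [Nat.card_prod, Nat.card_pi] at h3

end stab

section upper

variable {Γ : Type*} [Group Γ] (ρ : Γ →* (V ≃ₗ[F] V)) (E : Subgroup Γ)

/-- The family of endomorphisms. -/
noncomputable def ff (e : E) : End F V := ((ρ e.1 : V ≃ₗ[F] V) : V →ₗ[F] V)

theorem ff_apply (e : E) (x : V) : ff ρ E e x = ρ e.1 x := rfl

theorem ff_comm (hE : Cfsg.IsElementaryAbelian 2 E) (i j : E) : Commute (ff ρ E i) (ff ρ E j) := by
  show ff ρ E i * ff ρ E j = ff ρ E j * ff ρ E i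
  apply LinearMap.ext
  intro x
  show ρ i.1 (ρ j.1 x) = ρ j.1 (ρ i.1 x)
  have h1 : i.1 * j.1 = j.1 * i.1 := congrArg Subtype.val (hE.1.is_comm.comm i j)
  rw [← LinearEquiv.mul_apply, ← LinearEquiv.mul_apply, ← map_mul, ← map_mul, h1]

theorem ff_sq (hE : Cfsg.IsElementaryAbelian 2 E) (i : E) : ff ρ E i * ff ρ E i = 1 := by
  apply LinearMap.ext
  intro x
  show ρ i.1 (ρ i.1 x) = x
  have h1 : i.1 * i.1 = 1 := by
    have := hE.2 i.1 i.2
    rwa [sq] at this
  rw [← LinearEquiv.mul_apply, ← map_mul, h1, map_one]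
  rfl

theorem ff_inj (hρ : Function.Injective ρ) : Function.Injective (ff ρ E) := by
  intro i j h
  apply Subtype.ext
  apply hρ
  apply LinearEquiv.ext
  intro x
  exact LinearMap.congr_fun h x

variable [FiniteDimensional F V] [Finite F] [Fintype (E → F)]

theorem card_le_two_pow (h2 : (2 : F) ≠ 0) [Finite E] (hρ : Function.Injective ρ)
    (hE : Cfsg.IsElementaryAbelian 2 E) : Nat.card E ≤ 2 ^ (supp (ff ρ E)).card :=
  card_le h2 (ff_comm ρ E hE) (ff_sq ρ E hE) (ff_inj ρ E hρ)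

theorem finrank_pos_of_mem {χ : E → F} (h : χ ∈ supp (ff ρ E)) : 1 ≤ finrank F (eig (ff ρ E) χ) := by
  have h1 := mem_supp.1 h
  exact Module.finrank_pos_iff.2 (Submodule.nontrivial_iff_ne_bot.2 h1)

theorem supp_card_le (h2 : (2 : F) ≠ 0) [Finite E] (hE : Cfsg.IsElementaryAbelian 2 E) :
    (supp (ff ρ E)).card ≤ finrank F V := by
  rw [← sum_supp h2 (ff_comm ρ E hE) (ff_sq ρ E hE)]
  have := Finset.card_nsmul_le_sum (supp (ff ρ E)) (fun χ => finrank F (eig (ff ρ E) χ)) 1
    (fun χ hχ => finrank_pos_of_mem ρ E hχ)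
  simpa using this

end upper

section normal

variable {Γ : Type*} [Group Γ] (ρ : Γ →* (V ≃ₗ[F] V)) (E : Subgroup Γ) [hN : E.Normal]

/-- Conjugation on `E`. -/
def cj (s : Γ) (e : E) : E := ⟨s * e.1 * s⁻¹, hN.conj_mem _ e.2 s⟩

/-- The action on characters. -/
def act (s : Γ) (χ : E → F) : E → F := fun e => χ (cj E s⁻¹ e)

theorem act_one (χ : E → F) : act E (1 : Γ) χ = χ := by
  funext e
  unfold act
  congr 1
  apply Subtype.ext
  simp [cj]

theorem act_mul (s t : Γ) (χ : E → F) : act E (s * t) χ = act E s (act E t χ) := by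
  funext e
  unfold act
  congr 1
  apply Subtype.ext
  simp [cj, mul_assoc]

theorem eig_act {χ : E → F} {x : V} (hx : x ∈ eig (ff ρ E) χ) (s : Γ) :
    ρ s x ∈ eig (ff ρ E) (act E s χ) := by
  rw [mem_eig] at hx ⊢
  intro e
  have h1 := hx (cj E s⁻¹ e)
  rw [ff_apply] at h1 ⊢
  have h3 : (cj E s⁻¹ e).1 = s⁻¹ * e.1 * s := by simp [cj]
  rw [h3] at h1
  have h4 : e.1 * s = s * (s⁻¹ * e.1 * s) := by group
  rw [← LinearEquiv.mul_apply, ← map_mul, h4, map_mul, LinearEquiv.mul_apply, h1, map_smul]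
  rfl

theorem map_eig (s : Γ) (χ : E → F) :
    (eig (ff ρ E) χ).map ((ρ s : V ≃ₗ[F] V) : V →ₗ[F] V) = eig (ff ρ E) (act E s χ) := by
  apply le_antisymm
  · rintro _ ⟨x, hx, rfl⟩
    exact eig_act ρ E hx s
  · intro y hy
    have h1 := eig_act ρ E hy s⁻¹
    rw [← act_mul, inv_mul_cancel, act_one] at h1
    refine ⟨_, h1, ?_⟩
    show ρ s (ρ s⁻¹ y) = y
    rw [← LinearEquiv.mul_apply, ← map_mul, mul_inv_cancel, map_one]
    rfl

theorem finrank_act [FiniteDimensional F V] (s : Γ) (χ : E → F) :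
    finrank F (eig (ff ρ E) (act E s χ)) = finrank F (eig (ff ρ E) χ) := by
  rw [← map_eig]
  exact LinearEquiv.finrank_map_eq (ρ s) _

variable [FiniteDimensional F V] [Finite F] [Fintype (E → F)]

theorem act_mem_supp {χ : E → F} (h : χ ∈ supp (ff ρ E)) (s : Γ) : act E s χ ∈ supp (ff ρ E) := by
  rw [mem_supp] at h ⊢
  intro h0
  apply h
  rw [← Submodule.finrank_eq_zero, ← finrank_act ρ E s χ, h0]
  simp

/-- The characters with one-dimensional eigenspace. -/
noncomputable def X1 : Finset (E → F) := by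
  classical exact (supp (ff ρ E)).filter (fun χ => finrank F (eig (ff ρ E) χ) = 1)

/-- The other characters. -/
noncomputable def X2 : Finset (E → F) := by
  classical exact (supp (ff ρ E)).filter (fun χ => finrank F (eig (ff ρ E) χ) ≠ 1)

theorem mem_X1 {χ : E → F} : χ ∈ X1 ρ E ↔ χ ∈ supp (ff ρ E) ∧ finrank F (eig (ff ρ E) χ) = 1 := by
  classical simp [X1]

theorem mem_X2 {χ : E → F} : χ ∈ X2 ρ E ↔ χ ∈ supp (ff ρ E) ∧ finrank F (eig (ff ρ E) χ) ≠ 1 := by
  classical simp [X2]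

theorem card_X_add : (X1 ρ E).card + (X2 ρ E).card = (supp (ff ρ E)).card := by
  classical
  exact Finset.card_filter_add_card_filter_not _

theorem sum_X (h2 : (2 : F) ≠ 0) [Finite E] (hE : Cfsg.IsElementaryAbelian 2 E) :
    (X1 ρ E).card + ∑ χ ∈ X2 ρ E, finrank F (eig (ff ρ E) χ) = finrank F V := by
  classical
  rw [← sum_supp h2 (ff_comm ρ E hE) (ff_sq ρ E hE)]
  rw [← Finset.sum_filter_add_sum_filter_not (supp (ff ρ E))
    (fun χ => finrank F (eig (ff ρ E) χ) = 1)]
  congr 1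
  rw [Finset.card_eq_sum_ones]
  apply Finset.sum_congr rfl
  intro χ hχ
  exact (Finset.mem_filter.1 hχ).2.symm

/-- The permutation action on the lines. -/
noncomputable def piX1 : Γ →* Perm ↥(X1 ρ E) :=
  MonoidHom.toHomPerm
    { toFun := fun s χ => ⟨act E s χ.1, (mem_X1 ρ E).2 ⟨act_mem_supp ρ E ((mem_X1 ρ E).1 χ.2).1 s,
        (finrank_act ρ E s χ.1).trans ((mem_X1 ρ E).1 χ.2).2⟩⟩
      map_one' := by
        funext χ
        exact Subtype.ext (act_one E χ.1)
      map_mul' := by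
        intro s t
        funext χ
        exact Subtype.ext (act_mul E s t χ.1) }

theorem piX1_apply (s : Γ) (χ : ↥(X1 ρ E)) : ((piX1 ρ E s χ : ↥(X1 ρ E)) : E → F) = act E s χ.1 := rfl

/-- The complement. -/
noncomputable def WW : Submodule F V := (X2 ρ E).sup (eig (ff ρ E))

theorem WW_inv (s : Γ) (x : V) (hx : x ∈ WW ρ E) : ρ s x ∈ WW ρ E := by
  have h1 : WW ρ E ≤ (WW ρ E).comap ((ρ s : V ≃ₗ[F] V) : V →ₗ[F] V) := by
    apply Finset.sup_le
    intro χ hχ y hy
    rw [Submodule.mem_comap]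
    have h3 := eig_act ρ E hy s
    have h4 : act E s χ ∈ X2 ρ E := by
      obtain ⟨h5, h6⟩ := (mem_X2 ρ E).1 hχ
      refine (mem_X2 ρ E).2 ⟨act_mem_supp ρ E h5 s, ?_⟩
      rwa [finrank_act]
    exact (Finset.le_sup (f := eig (ff ρ E)) h4) h3
  exact h1 hx

theorem sup_WW (h2 : (2 : F) ≠ 0) [Finite E] (hE : Cfsg.IsElementaryAbelian 2 E) :
    (⨆ j : ↥(X1 ρ E), eig (ff ρ E) j.1) ⊔ WW ρ E = ⊤ := by
  rw [eq_top_iff, ← iSup_eig h2 (ff_comm ρ E hE) (ff_sq ρ E hE)]
  apply iSup_le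
  intro χ
  by_cases h0 : eig (ff ρ E) χ = ⊥
  · rw [h0]
    exact bot_le
  have hχ := mem_supp.2 h0
  by_cases h1 : finrank F (eig (ff ρ E) χ) = 1
  · exact le_sup_of_le_left (le_iSup (fun j : ↥(X1 ρ E) => eig (ff ρ E) j.1)
      ⟨χ, (mem_X1 ρ E).2 ⟨hχ, h1⟩⟩)
  · exact le_sup_of_le_right (Finset.le_sup (f := eig (ff ρ E)) ((mem_X2 ρ E).2 ⟨hχ, h1⟩))

theorem finrank_sup_le {ι : Type*} (T : Finset ι) (P : ι → Submodule F V) :
    finrank F ↥(T.sup P) ≤ ∑ i ∈ T, finrank F (P i) := by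
  classical
  induction T using Finset.induction_on with
  | empty => simp
  | insert a T ha ih =>
    rw [Finset.sup_insert, Finset.sum_insert ha]
    exact (Submodule.finrank_add_le_finrank_add_finrank _ _).trans (by omega)

/-- The arithmetic contradiction. -/
theorem X1_card_le (h2 : (2 : F) ≠ 0) [Finite Γ] {q : ℕ} [Fintype F] (hF : Fintype.card F = q)
    (hq3 : q % 4 = 3) (hρ : Function.Injective ρ) (hE : Cfsg.IsElementaryAbelian 2 E)
    (hS : (Nat.card Γ).factorization 2 = SS q (finrank F V)) : (X1 ρ E).card ≤ 1 := by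
  classical
  haveI : Fact (Nat.Prime 2) := ⟨Nat.prime_two⟩
  by_contra hm
  have hq1 : 1 < q := by
    rw [← hF]
    exact Fintype.one_lt_card
  have hqo : Odd q := Nat.odd_iff.2 (by omega)
  set m := (X1 ρ E).card with hmdef
  have hm2 : 2 ≤ m := by omega
  have hd := stab_dvd ρ hρ (piX1 ρ E) (fun j : ↥(X1 ρ E) => eig (ff ρ E) j.1) (WW ρ E)
    (by
      intro s j x hx
      rw [piX1_apply]
      exact eig_act ρ E hx s)
    (WW_inv ρ E) (sup_WW ρ E h2 hE)
  rw [Fintype.card_coe] at hd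
  have hfin : ∀ (L : Submodule F V), Nat.card (Module.End F L)ˣ ≠ 0 := by
    intro L
    haveI : Finite (Module.End F L) := Module.finite_of_finite F
    exact Nat.card_pos.ne'
  have hne1 : ∀ j : ↥(X1 ρ E), Nat.card (Module.End F (eig (ff ρ E) j.1))ˣ ≠ 0 := fun j => hfin _
  have hne2 : Nat.card (Module.End F (WW ρ E))ˣ ≠ 0 := hfin _
  have hne3 : (∏ j : ↥(X1 ρ E), Nat.card (Module.End F (eig (ff ρ E) j.1))ˣ) ≠ 0 :=
    Finset.prod_ne_zero_iff.2 fun j _ => hne1 j
  have hne4 : m.factorial * ((∏ j : ↥(X1 ρ E), Nat.card (Module.End F (eig (ff ρ E) j.1))ˣ) *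
      Nat.card (Module.End F (WW ρ E))ˣ) ≠ 0 :=
    mul_ne_zero (Nat.factorial_ne_zero _) (mul_ne_zero hne3 hne2)
  have h3 := (Nat.factorization_le_iff_dvd (Nat.card_pos.ne') hne4).2 hd 2
  rw [Nat.factorization_mul (Nat.factorial_ne_zero _) (mul_ne_zero hne3 hne2),
    Nat.factorization_mul hne3 hne2, Nat.factorization_prod (fun j _ => hne1 j), hS] at h3
  simp only [Finsupp.add_apply, Finsupp.finset_sum_apply] at h3
  have hline : ∀ j : ↥(X1 ρ E), (Nat.card (Module.End F (eig (ff ρ E) j.1))ˣ).factorization 2 = 1 := by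
    intro j
    rw [card_units_end, ((mem_X1 ρ E).1 j.2).2, val_GL hF hqo, SS_succ]
    simp only [SS, Finset.range_zero, Finset.sum_empty, zero_add]
    exact aa_odd_three hq3 0
  simp only [hline, Finset.sum_const, Finset.card_univ, Fintype.card_coe, smul_eq_mul, mul_one] at h3
  rw [card_units_end, val_GL hF hqo, Nat.factorization_def _ Nat.prime_two] at h3
  have h4 := sum_X ρ E h2 hE
  have h5 : finrank F (WW ρ E) ≤ finrank F V - m := by
    have := finrank_sup_le (X2 ρ E) (eig (ff ρ E))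
    unfold WW
    omega
  have h6 := SS_add_gt hq1 hq3 (finrank F V - m) m hm2
  have h7 : finrank F V - m + m = finrank F V := by omega
  rw [h7] at h6
  have h8 : SS q (finrank F (WW ρ E)) ≤ SS q (finrank F V - m) := by
    unfold SS
    exact Finset.sum_le_sum_of_subset (Finset.range_mono h5)
  omega

theorem supp_three (h2 : (2 : F) ≠ 0) [Finite Γ] {q : ℕ} [Fintype F] (hF : Fintype.card F = q)
    (hq3 : q % 4 = 3) (hρ : Function.Injective ρ) (hE : Cfsg.IsElementaryAbelian 2 E)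
    (hS : (Nat.card Γ).factorization 2 = SS q (finrank F V)) :
    (supp (ff ρ E)).card ≤ (finrank F V + 1) / 2 := by
  have h1 := X1_card_le ρ E h2 hF hq3 hρ hE hS
  have h3 := sum_X ρ E h2 hE
  have h4 := card_X_add ρ E
  have h5 : 2 * (X2 ρ E).card ≤ ∑ χ ∈ X2 ρ E, finrank F (eig (ff ρ E) χ) := by
    rw [mul_comm, ← smul_eq_mul]
    apply Finset.card_nsmul_le_sum
    intro χ hχ
    obtain ⟨h6, h7⟩ := (mem_X2 ρ E).1 hχ
    have := finrank_pos_of_mem ρ E h6
    omega
  omega

end normal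

section exist

variable {W U : Type*} [AddCommGroup W] [Module F W] [AddCommGroup U] [Module F U]

/-- The group `{±1}`. -/
def Zs (F M : Type*) [Field F] [AddCommGroup M] [Module F M] : Subgroup (M ≃ₗ[F] M) where
  carrier := {g | g = 1 ∨ g = LinearEquiv.neg F}
  mul_mem' := by
    rintro a b (rfl | rfl) (rfl | rfl)
    · left; rfl
    · right; rfl
    · right; rfl
    · left
      ext x
      simp [LinearEquiv.mul_apply]
  one_mem' := Or.inl rfl
  inv_mem' := by
    rintro a (rfl | rfl)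
    · left; rfl
    · right
      ext x
      show (LinearEquiv.neg F).symm x = (LinearEquiv.neg F) x
      simp

theorem Zs_comm {M : Type*} [AddCommGroup M] [Module F M] {g : M ≃ₗ[F] M} (a : M ≃ₗ[F] M) (hg : g ∈ Zs F M) :
    a * g = g * a := by
  rcases hg with rfl | rfl
  · simp
  · ext x
    simp [LinearEquiv.mul_apply]

theorem Zs_sq {M : Type*} [AddCommGroup M] [Module F M] {g : M ≃ₗ[F] M} (hg : g ∈ Zs F M) : g * g = 1 :=
  (Zs F M).mul_mem hg hg |>.elim (fun h => h) (fun h => by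
    rcases hg with rfl | rfl
    · simp
    · ext x
      simp [LinearEquiv.mul_apply])

theorem card_Zs_two (h2 : (2 : F) ≠ 0) (M : Type*) [AddCommGroup M] [Module F M] [Nontrivial M] :
    Nat.card (Zs F M) = 2 := by
  rw [Nat.card_eq_two_iff]
  refine ⟨⟨1, Or.inl rfl⟩, ⟨LinearEquiv.neg F, Or.inr rfl⟩, ?_, ?_⟩
  · intro h
    obtain ⟨x, hx⟩ := exists_ne (0 : M)
    have h3 : (1 : M ≃ₗ[F] M) x = (LinearEquiv.neg F) x := by
      have := congrArg Subtype.val h
      simp only at this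
      rw [this]
    have h4 : x = -x := by simpa using h3
    have h5 : (2 : F) • x = 0 := by
      rw [two_smul]
      nth_rewrite 1 [h4]
      simp
    exact hx ((smul_eq_zero.1 h5).resolve_left h2)
  · ext ⟨g, hg | hg⟩
    · simp [hg]
    · simp [hg]

theorem card_Zs_one (M : Type*) [AddCommGroup M] [Module F M] [Subsingleton M] :
    Nat.card (Zs F M) = 1 := by
  have : Subsingleton (Zs F M) := by
    constructor
    rintro ⟨a, -⟩ ⟨b, -⟩
    apply Subtype.ext
    apply LinearEquiv.ext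
    intro x
    exact Subsingleton.elim _ _
  haveI : Nonempty (Zs F M) := ⟨1⟩
  exact Nat.card_eq_one_iff_unique.2 ⟨inferInstance, inferInstance⟩

variable {k : ℕ}

variable (F W U k) in
/-- The elementary abelian subgroup. -/
def E0 : Subgroup (((Fin k → W) × U) ≃ₗ[F] ((Fin k → W) × U)) :=
  PP (Zs F W) (Zs F U) (⊥ : Subgroup (Perm (Fin k)))

theorem mem_E0 {x : ((Fin k → W) × U) ≃ₗ[F] ((Fin k → W) × U)} :
    x ∈ E0 F W U k ↔ ∃ g h, (∀ j, g j ∈ Zs F W) ∧ h ∈ Zs F U ∧ x = wrBase g h := by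
  constructor
  · rintro ⟨g, h, τ, hg, hh, hτ, rfl⟩
    refine ⟨g, h, hg, hh, ?_⟩
    rw [(Subgroup.mem_bot.1 hτ), wrPerm_one, mul_one]
  · rintro ⟨g, h, hg, hh, rfl⟩
    exact ⟨g, h, 1, hg, hh, Subgroup.one_mem _, by rw [wrPerm_one, mul_one]⟩

theorem E0_sq {x : ((Fin k → W) × U) ≃ₗ[F] ((Fin k → W) × U)} (hx : x ∈ E0 F W U k) : x * x = 1 := by
  obtain ⟨g, h, hg, hh, rfl⟩ := mem_E0.1 hx
  rw [wrBase_mul, Zs_sq hh]
  have : g * g = 1 := by
    funext j
    exact Zs_sq (hg j)
  rw [this, wrBase_one]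

theorem elem_E0 : Cfsg.IsElementaryAbelian 2 (E0 F W U k) := by
  refine ⟨⟨⟨?_⟩⟩, fun a ha => by rw [sq]; exact E0_sq ha⟩
  rintro ⟨a, ha⟩ ⟨b, hb⟩
  apply Subtype.ext
  obtain ⟨g, h, hg, hh, rfl⟩ := mem_E0.1 ha
  obtain ⟨g', h', hg', hh', rfl⟩ := mem_E0.1 hb
  show wrBase g h * wrBase g' h' = wrBase g' h' * wrBase g h
  rw [wrBase_mul, wrBase_mul, Zs_comm h hh']
  congr 1
  funext j
  exact Zs_comm (g j) (hg' j)

theorem isPGroup_E0 : IsPGroup 2 (E0 F W U k) := by
  intro x
  refine ⟨1, ?_⟩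
  apply Subtype.ext
  simp only [pow_one, Subgroup.coe_pow, Subgroup.coe_one]
  rw [sq]
  exact E0_sq x.2

theorem conj_mem_E0 {x z : ((Fin k → W) × U) ≃ₗ[F] ((Fin k → W) × U)}
    (hx : x ∈ PP (⊤ : Subgroup (W ≃ₗ[F] W)) (⊤ : Subgroup (U ≃ₗ[F] U)) (⊤ : Subgroup (Perm (Fin k))))
    (hz : z ∈ E0 F W U k) : x * z * x⁻¹ ∈ E0 F W U k := by
  obtain ⟨g, h, τ, -, -, -, rfl⟩ := hx
  obtain ⟨g₀, h₀, hg₀, hh₀, rfl⟩ := mem_E0.1 hz
  have e : wrBase g h * wrPerm τ * wrBase g₀ h₀ =
      wrBase (fun j => g₀ (τ⁻¹ j)) h₀ * (wrBase g h * wrPerm τ) := by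
    rw [mul_assoc, wrPerm_mul_wrBase, ← mul_assoc, wrBase_mul, ← mul_assoc, wrBase_mul, Zs_comm h hh₀]
    congr 2
    funext j
    exact Zs_comm (g j) (hg₀ _)
  rw [e, mul_inv_cancel_right]
  exact mem_E0.2 ⟨_, h₀, fun j => hg₀ _, hh₀, rfl⟩

theorem big_le_normalizer :
    PP (⊤ : Subgroup (W ≃ₗ[F] W)) (⊤ : Subgroup (U ≃ₗ[F] U)) (⊤ : Subgroup (Perm (Fin k))) ≤
      Subgroup.normalizer (E0 F W U k : Set (((Fin k → W) × U) ≃ₗ[F] ((Fin k → W) × U))) := by
  intro x hx
  rw [Subgroup.mem_normalizer_iff]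
  intro y
  constructor
  · intro hy
    exact conj_mem_E0 hx hy
  · intro hy
    have h1 := conj_mem_E0 (Subgroup.inv_mem _ hx) hy
    have e : x⁻¹ * (x * y * x⁻¹) * x⁻¹⁻¹ = y := by group
    rwa [e] at h1

theorem exist_wr [Fintype F] {q : ℕ} (hF : Fintype.card F = q) (hq : Odd q) (h2 : (2 : F) ≠ 0)
    {d k r n : ℕ} (hn : k * d + r = n) (hd : 1 ≤ d)
    (hval : SS q n ≤ k * SS q d + SS q r + padicValNat 2 k.factorial)
    (hZ : Nat.card (Zs F (Fin r → F)) = 2 ^ r) :
    ∃ E : Subgroup (GL (Fin n) F), IsPGroup 2 E ∧ Cfsg.IsElementaryAbelian 2 E ∧ Nat.card E = 2 ^ (k + r) ∧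
      (Nat.card (GL (Fin n) F)).factorization 2 ≤
        (Nat.card (Subgroup.normalizer (E : Set (GL (Fin n) F)))).factorization 2 := by
  classical
  haveI : Fact (Nat.Prime 2) := ⟨Nat.prime_two⟩
  let W := Fin d → F
  let U := Fin r → F
  haveI : Nonempty (Fin d) := ⟨⟨0, hd⟩⟩
  haveI : Nontrivial W := inferInstanceAs (Nontrivial (Fin d → F))
  have hfin : finrank F ((Fin k → W) × U) = n := by
    rw [Module.finrank_prod, Module.finrank_pi_fintype]
    simp [W, U, hn.symm]
  let b : Basis (Fin n) F ((Fin k → W) × U) := Module.finBasisOfFinrankEq F _ hfin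
  let θ := theta b
  have hWc : Nat.card (W ≃ₗ[F] W) = Nat.card (GL (Fin d) F) :=
    Nat.card_congr (theta (Pi.basisFun F (Fin d))).toEquiv
  have hUc : Nat.card (U ≃ₗ[F] U) = Nat.card (GL (Fin r) F) :=
    Nat.card_congr (theta (Pi.basisFun F (Fin r))).toEquiv
  haveI : Finite (Module.End F W) := Module.finite_of_finite F
  haveI : Finite (W ≃ₗ[F] W) := Finite.of_injective (fun e => (e : W →ₗ[F] W)) (fun a b h => LinearEquiv.ext (LinearMap.congr_fun h))
  haveI : Finite (Module.End F U) := Module.finite_of_finite F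
  haveI : Finite (U ≃ₗ[F] U) := Finite.of_injective (fun e => (e : U →ₗ[F] U)) (fun a b h => LinearEquiv.ext (LinearMap.congr_fun h))
  haveI : Finite (((Fin k → W) × U) ≃ₗ[F] ((Fin k → W) × U)) :=
    Finite.of_equiv _ θ.symm.toEquiv
  refine ⟨(E0 F W U k).map θ.toMonoidHom, (isPGroup_E0).map _, ?_, ?_, ?_⟩
  · refine ⟨⟨⟨?_⟩⟩, ?_⟩
    · rintro ⟨a, a', ha, rfl⟩ ⟨b, b', hb, rfl⟩
      apply Subtype.ext
      show θ.toMonoidHom a' * θ.toMonoidHom b' = θ.toMonoidHom b' * θ.toMonoidHom a'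
      rw [← map_mul, ← map_mul]
      congr 1
      exact congrArg Subtype.val ((elem_E0 (F := F) (W := W) (U := U) (k := k)).1.is_comm.comm ⟨a', ha⟩ ⟨b', hb⟩)
    · rintro _ ⟨a', ha, rfl⟩
      rw [← map_pow, elem_E0.2 a' ha, map_one]
  · rw [← Nat.card_congr ((E0 F W U k).equivMapOfInjective θ.toMonoidHom θ.injective).toEquiv]
    unfold E0
    rw [card_PP, card_Zs_two h2, hZ]
    simp [pow_add]
  · have h3 : Subgroup.normalizer (((E0 F W U k).map θ.toMonoidHom : Subgroup _) : Set (GL (Fin n) F)) =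
        (Subgroup.normalizer (E0 F W U k : Set _)).map θ.toMonoidHom :=
      (Subgroup.map_equiv_normalizer_eq (E0 F W U k) θ).symm
    rw [h3]
    have h4 := Nat.card_congr ((Subgroup.normalizer (E0 F W U k : Set _)).equivMapOfInjective θ.toMonoidHom θ.injective).toEquiv
    rw [← h4]
    have h5 := Subgroup.card_dvd_of_le (big_le_normalizer (F := F) (W := W) (U := U) (k := k))
    rw [card_PP, Subgroup.card_top, Subgroup.card_top, Subgroup.card_top,
      Nat.card_eq_fintype_card (α := Perm (Fin k)), Fintype.card_perm, Fintype.card_fin, hWc, hUc] at h5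
    have hne1 : Nat.card (GL (Fin d) F) ≠ 0 := Nat.card_pos.ne'
    have hne2 : Nat.card (GL (Fin r) F) ≠ 0 := Nat.card_pos.ne'
    have hne3 : Nat.card (GL (Fin d) F) ^ k ≠ 0 := pow_ne_zero _ hne1
    have hne4 : Nat.card (GL (Fin d) F) ^ k * Nat.card (GL (Fin r) F) ≠ 0 := mul_ne_zero hne3 hne2
    have hne5 := Nat.factorial_ne_zero k
    haveI : Finite (Subgroup.normalizer (E0 F W U k : Set (((Fin k → W) × U) ≃ₗ[F] ((Fin k → W) × U)))) := inferInstance
    have h6 := (Nat.factorization_le_iff_dvd (mul_ne_zero hne4 hne5) Nat.card_pos.ne').2 h5 2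
    rw [Nat.factorization_mul hne4 hne5, Nat.factorization_mul hne3 hne2, Nat.factorization_pow] at h6
    simp only [Finsupp.add_apply, Finsupp.smul_apply, smul_eq_mul] at h6
    rw [val_GL hF hq, val_GL hF hq, Nat.factorization_def _ Nat.prime_two] at h6
    rw [val_GL hF hq]
    omega

end exist

section final

/-- The main theorem. -/
theorem main {F : Type*} [Field F] [Fintype F] {q : ℕ} (hF : Fintype.card F = q) (hodd : Odd q) (n : ℕ)
    (S : Sylow 2 (GL (Fin n) F)) :
    (q % 4 = 1 → ((∃ E : Subgroup ↥(S : Subgroup (GL (Fin n) F)), E.Normal ∧ Cfsg.IsElementaryAbelian 2 E ∧ 2 ^ n ≤ Nat.card ↥E) ∧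
      ∀ E : Subgroup ↥(S : Subgroup (GL (Fin n) F)), E.Normal → Cfsg.IsElementaryAbelian 2 E → Nat.card ↥E ≤ 2 ^ n)) ∧
    (q % 4 = 3 → ((∃ E : Subgroup ↥(S : Subgroup (GL (Fin n) F)), E.Normal ∧ Cfsg.IsElementaryAbelian 2 E ∧ 2 ^ ((n + 1) / 2) ≤ Nat.card ↥E) ∧
      ∀ E : Subgroup ↥(S : Subgroup (GL (Fin n) F)), E.Normal → Cfsg.IsElementaryAbelian 2 E → Nat.card ↥E ≤ 2 ^ ((n + 1) / 2))) := by
  classical
  haveI : Fact (Nat.Prime 2) := ⟨Nat.prime_two⟩
  have hq1 : 1 < q := by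
    rw [← hF]
    exact Fintype.one_lt_card
  have h2 : (2 : F) ≠ 0 := by
    intro h
    have hodd' : ringChar F ≠ 2 := by
      intro h4
      have := FiniteField.even_card_of_char_two h4
      rw [hF, Nat.even_iff.symm] at this
      exact (Nat.not_even_iff_odd.2 hodd) this
    have h3 : ringChar F ∣ 2 := (ringChar.spec F 2).1 (by exact_mod_cast h)
    have hp := (CharP.char_is_prime_or_zero F (ringChar F)).resolve_right (CharP.ringChar_ne_zero_of_finite F)
    exact hodd' ((Nat.prime_dvd_prime_iff_eq hp Nat.prime_two).1 h3)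
  -- the representation
  let b : Basis (Fin n) F (Fin n → F) := Pi.basisFun F (Fin n)
  let θ := theta b
  let ρ : ↥(S : Subgroup (GL (Fin n) F)) →* ((Fin n → F) ≃ₗ[F] (Fin n → F)) :=
    θ.symm.toMonoidHom.comp (S : Subgroup (GL (Fin n) F)).subtype
  have hρ : Function.Injective ρ := θ.symm.injective.comp Subtype.val_injective
  have hS : (Nat.card ↥(S : Subgroup (GL (Fin n) F))).factorization 2 = SS q n := by
    rw [S.card_eq_multiplicity, Nat.factorization_pow, Finsupp.smul_apply,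
      Nat.Prime.factorization_self Nat.prime_two, smul_eq_mul, mul_one]
    exact val_GL hF hodd n
  have hfr : finrank F (Fin n → F) = n := by simp
  constructor
  · intro hq
    constructor
    · have hv : SS q n ≤ n * SS q 1 + SS q 0 + padicValNat 2 n.factorial := by
        rw [SS_one_formula hq1 hq, SS_one_formula hq1 hq, SS_one_formula hq1 hq]
        simp
      obtain ⟨E, hE1, hE2, hE3, hE4⟩ := exist_wr hF hodd h2 (d := 1) (k := n) (r := 0) (n := n) (by simp) le_rfl hv
        (by simpa using card_Zs_one (F := F) (Fin 0 → F))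
      obtain ⟨A, hA, hAe, hAc⟩ := exists_normal_elem hE1 hE2 hE4 S
      refine ⟨A, hA, hAe, ?_⟩
      rw [hAc, hE3]
      simp
    · intro E _ hE
      haveI : Fintype (E → F) := Fintype.ofFinite _
      have h3 := card_le_two_pow ρ E h2 hρ hE
      have h4 := supp_card_le ρ E h2 hE
      rw [hfr] at h4
      exact h3.trans (Nat.pow_le_pow_right (by norm_num) h4)
  · intro hq
    constructor
    · have hv : SS q n ≤ (n / 2) * SS q 2 + SS q (n % 2) + padicValNat 2 (n / 2).factorial := by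
        have e2 : SS q 2 = 1 * (1 + e0 q) + padicValNat 2 (1 : ℕ).factorial := SS_three_even hq1 hq 1
        have e3 : padicValNat 2 (1 : ℕ).factorial = 0 := by simp
        rw [e2, e3]
        rcases Nat.mod_two_eq_zero_or_one n with h | h
        · have e : n = 2 * (n / 2) := by omega
          rw [h]
          nth_rewrite 1 [e]
          rw [SS_three_even hq1 hq]
          simp [SS]
        · have e : n = 2 * (n / 2) + 1 := by omega
          rw [h]
          nth_rewrite 1 [e]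
          rw [SS_three_odd hq1 hq]
          have e4 : SS q 1 = 1 := by
            have := SS_three_odd hq1 hq 0
            simpa using this
          rw [e4]
          simp
      obtain ⟨E, hE1, hE2, hE3, hE4⟩ := exist_wr hF hodd h2 (d := 2) (k := n / 2) (r := n % 2) (n := n)
        (by omega) (by norm_num) hv (by
          rcases Nat.mod_two_eq_zero_or_one n with h | h <;> rw [h]
          · simpa using card_Zs_one (F := F) (Fin 0 → F)
          · simpa using card_Zs_two h2 (Fin 1 → F))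
      obtain ⟨A, hA, hAe, hAc⟩ := exists_normal_elem hE1 hE2 hE4 S
      refine ⟨A, hA, hAe, ?_⟩
      rw [hAc, hE3]
      exact Nat.pow_le_pow_right (by norm_num) (by omega)
    · intro E _ hE
      haveI : Fintype (E → F) := Fintype.ofFinite _
      have h3 := card_le_two_pow ρ E h2 hρ hE
      have h4 := supp_three ρ E h2 hF hq hρ hE (by rw [hfr]; exact hS)
      rw [hfr] at h4
      exact h3.trans (Nat.pow_le_pow_right (by norm_num) h4)

end final

end Cfsg.Agent.Lib.GLNorm41
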