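import Mathlib
import Cfsg.Agent.Lib.GOmF
import Cfsg.Agent.Lib.OrthOmega

/-!
# The multiplicity of the eigenvalue one, and the norm of an isometry
-/

set_option autoImplicit false
set_option linter.unusedSectionVars false
set_option linter.unusedSimpArgs false
set_option linter.unusedVariables false
set_option linter.style.haveILetI false

namespace Cfsg.Agent.Lib.GOm

open Polynomial Finset Module
open Cfsg.Agent.Lib.SpSpec Cfsg.Agent.Lib.SpBasic Cfsg.Agent.Lib.SpCenter

section mult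

variable {F : Type*} [Field F] [Fintype F]

theorem spec_mult (p : ℕ) [hp : Fact p.Prime] [CharP F p] {n : ℕ} (y : SpG n F) (a' α : ℕ) (ha' : Odd a')
    (hcop : Nat.Coprime a' p) (hord : orderOf y = a' * p ^ α)
    [DecidableEq (AlgebraicClosure F)] :
    ∃ R : Finset (AlgebraicClosure F), ClosedSet (Fintype.card F) a' R ∧ IsExp R a' ∧ R.card +
      rootMultiplicity (1 : AlgebraicClosure F) (chi (y.1 : Matrix (Fin n ⊕ Fin n) (Fin n ⊕ Fin n) F)) ≤ 2 * n := by
  classical
  set A : Matrix (Fin n ⊕ Fin n) (Fin n ⊕ Fin n) F := y.1 with hA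
  have ha0 : a' ≠ 0 := by
    rintro rfl
    simp at ha'
  have hcoe : ∀ k : ℕ, A ^ k = ((y ^ k : SpG n F) : Matrix (Fin n ⊕ Fin n) (Fin n ⊕ Fin n) F) := fun k => rfl
  have hordA : ∀ N, A ^ N = 1 ↔ a' * p ^ α ∣ N := by
    intro N
    rw [← hord, orderOf_dvd_iff_pow_eq_one, hcoe]
    constructor
    · intro h
      exact Subtype.ext h
    · intro h
      rw [h]
      rfl
  obtain ⟨h1, h2, h3⟩ := eigen_decomp p A a' α hcop ha0 hordA
  have hq : Nat.Coprime (Fintype.card F) a' := by
    obtain ⟨f, hf1, hf2⟩ : ∃ f : ℕ, f ≠ 0 ∧ Fintype.card F = p ^ f := by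
      obtain ⟨f, hpp, hf⟩ := FiniteField.card F p
      exact ⟨f, f.2.ne', hf⟩
    rw [hf2]
    exact Nat.Coprime.pow_left _ hcop.symm
  set R₀ := (chi A).roots.toFinset with hR₀
  have hmemR₀ : ∀ ω, ω ∈ R₀ ↔ ω ∈ (chi A).roots := fun ω => Multiset.mem_toFinset
  have hmult : ∀ ω, ω ∈ R₀ ↔ 0 < rootMultiplicity ω (chi A) := by
    intro ω
    rw [hmemR₀, ← count_roots, Multiset.count_pos]
  have hform : A.transpose * Matrix.J (Fin n) F * A = Matrix.J (Fin n) F :=
    SymplecticGroup.mem_iff'.mp y.2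
  have hinvm : ∀ ω, ω ∈ R₀ → rootMultiplicity ω⁻¹ (chi A) = rootMultiplicity ω (chi A) := by
    intro ω hω
    have hω0 : ω ≠ 0 := ne_zero_of_pow_eq_one ha0 (h1 ω ((hmemR₀ ω).mp hω))
    exact mult_inv_of_form A _ (isUnit_J n) hform ω hω0
  set R := R₀.erase 1 with hR
  have hne1 : ∀ ω : AlgebraicClosure F, ω ^ a' = 1 → ω ≠ 1 → ω⁻¹ ≠ ω := by
    intro ω hω hω1 h
    have hω0 : ω ≠ 0 := ne_zero_of_pow_eq_one ha0 hω
    have h4 : ω ^ 2 = 1 := by
      rw [pow_two]
      nth_rewrite 1 [← h]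
      exact inv_mul_cancel₀ hω0
    have h5 : orderOf ω ∣ 2 := orderOf_dvd_of_pow_eq_one h4
    have h6 : orderOf ω ∣ a' := orderOf_dvd_of_pow_eq_one hω
    have h7 : orderOf ω ∣ Nat.gcd 2 a' := Nat.dvd_gcd h5 h6
    have h8 : Nat.gcd 2 a' = 1 := Nat.coprime_two_left.mpr ha'
    rw [h8, Nat.dvd_one, orderOf_eq_one_iff] at h7
    exact hω1 h7
  have hclosed : ClosedSet (Fintype.card F) a' R := by
    refine ⟨?_, ?_, ?_, ?_⟩
    · intro ω hω
      rw [hR, mem_erase] at hω ⊢
      refine ⟨?_, ?_⟩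
      · intro h
        have h5 : orderOf ω ∣ Fintype.card F := orderOf_dvd_of_pow_eq_one h
        have h6 : orderOf ω ∣ a' := orderOf_dvd_of_pow_eq_one (h1 ω ((hmemR₀ ω).mp hω.2))
        have h7 : orderOf ω ∣ Nat.gcd (Fintype.card F) a' := Nat.dvd_gcd h5 h6
        rw [hq, Nat.dvd_one, orderOf_eq_one_iff] at h7
        exact hω.1 h7
      · rw [hmult, mult_frob, ← hmult]
        exact hω.2
    · intro ω hω
      rw [hR, mem_erase] at hω ⊢
      refine ⟨?_, ?_⟩
      · intro h
        exact hω.1 (inv_eq_one.mp h)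
      · rw [hmult, hinvm ω hω.2, ← hmult]
        exact hω.2
    · intro ω hω
      rw [hR, mem_erase] at hω
      exact h1 ω ((hmemR₀ ω).mp hω.2)
    · rw [hR]
      exact notMem_erase _ _
  have hexp : IsExp R a' := by
    intro b
    constructor
    · intro hb
      apply h2 b
      intro ω hω
      by_cases hω1 : ω = 1
      · rw [hω1, one_pow]
      · apply hb
        rw [hR, mem_erase]
        exact ⟨hω1, (hmemR₀ ω).mpr hω⟩
    · rintro ⟨t, rfl⟩ ω hω
      rw [hR, mem_erase] at hω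
      rw [pow_mul, h1 ω ((hmemR₀ ω).mp hω.2), one_pow]
  have hcard2 : Fintype.card (Fin n ⊕ Fin n) = 2 * n := by
    simp only [Fintype.card_sum, Fintype.card_fin]
    ring
  have hsum : ∑ x ∈ R₀, rootMultiplicity x (chi A) = 2 * n := by
    rw [← hcard2]
    exact sum_mult A
  have hRle : ∀ T ⊆ R₀, T.card ≤ ∑ ω ∈ T, rootMultiplicity ω (chi A) := by
    intro T hT
    calc T.card = ∑ ω ∈ T, 1 := by simp
      _ ≤ _ := by
        apply Finset.sum_le_sum
        intro ω hω
        exact (hmult ω).mp (hT hω)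
  have hRcard : R.card ≤ 2 * n := by
    calc R.card ≤ R₀.card := card_le_card (erase_subset _ _)
      _ ≤ ∑ ω ∈ R₀, rootMultiplicity ω (chi A) := hRle _ subset_rfl
      _ = 2 * n := hsum
  refine ⟨R, hclosed, hexp, ?_⟩
  by_cases h1R : (1 : AlgebraicClosure F) ∈ R₀
  · have h4 : rootMultiplicity (1 : AlgebraicClosure F) (chi A) + ∑ x ∈ R, rootMultiplicity x (chi A) =
        ∑ x ∈ R₀, rootMultiplicity x (chi A) :=
      Finset.add_sum_erase R₀ (fun ω => rootMultiplicity ω (chi A)) h1R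
    have h5 := hRle R (erase_subset _ _)
    omega
  · have h6 : rootMultiplicity (1 : AlgebraicClosure F) (chi A) = 0 := by
      by_contra hne
      exact h1R ((hmult 1).mpr (Nat.pos_of_ne_zero hne))
    rw [h6]
    omega

end mult

section LA

variable {F V : Type*} [Field F] [CharP F 2] [AddCommGroup V] [Module F V] [FiniteDimensional F V]

theorem geom_factor (F : Type*) [Field F] [CharP F 2] (a β : ℕ) :
    (∑ i ∈ range (a * 2 ^ β), (X : F[X]) ^ i) =
      (X - 1) ^ (2 ^ β - 1) * (∑ i ∈ range a, (X : F[X]) ^ i) ^ (2 ^ β) := by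
  have hX : (X - 1 : F[X]) ≠ 0 := by
    have := Polynomial.X_sub_C_ne_zero (1 : F)
    simpa using this
  apply mul_left_cancel₀ hX
  rw [mul_geom_sum, ← mul_assoc, ← pow_succ', Nat.sub_add_cancel (Nat.one_le_two_pow), ← mul_pow, mul_geom_sum,
    sub_pow_char_pow, one_pow, pow_mul]

/-- The rank of the powers of `T`. -/
theorem range_pow_succ_le (T : Module.End F V) (j : ℕ) : LinearMap.range (T ^ (j + 1)) ≤ LinearMap.range (T ^ j) := by
  rw [pow_succ]
  exact LinearMap.range_comp_le_range _ _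

theorem stable_step {T : Module.End F V} {j : ℕ} (h : LinearMap.range (T ^ (j + 1)) = LinearMap.range (T ^ j)) :
    LinearMap.range (T ^ (j + 1 + 1)) = LinearMap.range (T ^ (j + 1)) := by
  have h1 : T ^ (j + 1 + 1) = T ∘ₗ (T ^ (j + 1)) := pow_succ' T (j + 1)
  have h2 : T ^ (j + 1) = T ∘ₗ (T ^ j) := pow_succ' T j
  calc LinearMap.range (T ^ (j + 1 + 1)) = LinearMap.range (T ∘ₗ (T ^ (j + 1))) := by rw [h1]
    _ = (LinearMap.range (T ^ (j + 1))).map T := LinearMap.range_comp _ _
    _ = (LinearMap.range (T ^ j)).map T := by rw [h]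
    _ = LinearMap.range (T ∘ₗ (T ^ j)) := (LinearMap.range_comp _ _).symm
    _ = LinearMap.range (T ^ (j + 1)) := by rw [← h2]

theorem stable_mono {T : Module.End F V} {i j : ℕ} (hij : i ≤ j) (h : LinearMap.range (T ^ (i + 1)) = LinearMap.range (T ^ i)) :
    LinearMap.range (T ^ (j + 1)) = LinearMap.range (T ^ j) := by
  induction j, hij using Nat.le_induction with
  | base => exact h
  | succ j _ ih => exact stable_step ih

/-- If the range is stable at `j`, `T` is injective on it. -/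
theorem eq_zero_of_stable {T : Module.End F V} {j : ℕ} (h : LinearMap.range (T ^ (j + 1)) = LinearMap.range (T ^ j)) {x : V}
    (hx : x ∈ LinearMap.range (T ^ j)) (hT : T x = 0) : x = 0 := by
  set Y := LinearMap.range (T ^ j) with hY
  have hmap : ∀ y ∈ Y, T y ∈ Y := by
    intro y hy
    rw [← h]
    obtain ⟨z, rfl⟩ := hy
    refine ⟨z, ?_⟩
    rw [pow_succ']
    rfl
  have hsurj : Function.Surjective (T.restrict hmap) := by
    rintro ⟨y, hy⟩
    have hy' : y ∈ LinearMap.range (T ^ (j + 1)) := by rw [h]; exact hy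
    obtain ⟨z, rfl⟩ := hy'
    refine ⟨⟨(T ^ j) z, LinearMap.mem_range_self _ z⟩, ?_⟩
    apply Subtype.ext
    show T ((T ^ j) z) = (T ^ (j + 1)) z
    rw [pow_succ']
    rfl
  have hinj := LinearMap.injective_iff_surjective.mpr hsurj
  have h0 : T.restrict hmap ⟨x, hx⟩ = T.restrict hmap 0 := by
    apply Subtype.ext
    rw [map_zero]
    exact hT
  have := hinj h0
  simpa using congrArg Subtype.val this

/-- The main estimate on the multiplicity of the eigenvalue one. -/
theorem la_main (g : V ≃ₗ[F] V) {a β : ℕ} (hn : g ^ (a * 2 ^ β) = 1) (hfin : finrank F V = 8)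
    (hN : ∃ v, Cfsg.Agent.Lib.GOm.Nrm (a * 2 ^ β) g v ≠ 0)
    (heven : Even (finrank F (Cfsg.Agent.Lib.OrthGroup.fix g))) :
    2 ^ β + 1 ≤ finrank F (LinearMap.ker ((((g : V →ₗ[F] V) - LinearMap.id : Module.End F V)) ^ 8)) := by
  classical
  set φ : Module.End F V := (g : V →ₗ[F] V) with hφ
  set T : Module.End F V := φ - 1 with hT
  have hT' : ((g : V →ₗ[F] V) - LinearMap.id : Module.End F V) = T := rfl
  rw [hT']
  have hφpow : ∀ (i : ℕ) (x : V), (φ ^ i) x = (g ^ i) x := by
    intro i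
    induction i with
    | zero => intro x; rfl
    | succ i ih =>
      intro x
      rw [pow_succ', pow_succ', Module.End.mul_apply, ih]
      rfl
  have hφn : φ ^ (a * 2 ^ β) = 1 := by
    ext x
    rw [hφpow, hn]
    rfl
  set NN : Module.End F V := ∑ i ∈ range (a * 2 ^ β), φ ^ i with hNN
  have hNNapply : ∀ x, NN x = Cfsg.Agent.Lib.GOm.Nrm (a * 2 ^ β) g x := by
    intro x
    rw [hNN, LinearMap.sum_apply]
    exact Finset.sum_congr rfl fun i _ => hφpow i x
  set CC : Module.End F V := (∑ i ∈ range a, φ ^ i) ^ (2 ^ β) with hCC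
  have hfac : NN = T ^ (2 ^ β - 1) * CC := by
    have h := congrArg (Polynomial.aeval φ) (geom_factor F a β)
    simpa [hNN, hCC, hT, map_sum, map_mul, map_pow, map_sub] using h
  have hTN : T * NN = 0 := by
    rw [hNN, hT, mul_geom_sum, hφn, sub_self]
  -- the range is not stable at `2 ^ β - 1`
  have hns : LinearMap.range (T ^ (2 ^ β - 1 + 1)) ≠ LinearMap.range (T ^ (2 ^ β - 1)) := by
    intro hst
    obtain ⟨v, hv⟩ := hN
    apply hv
    rw [← hNNapply]
    apply eq_zero_of_stable hst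
    · rw [hfac]
      exact ⟨CC v, rfl⟩
    · have := congrArg (fun f : Module.End F V => f v) hTN
      exact this
  have hlt : ∀ j, j ≤ 2 ^ β - 1 → finrank F (LinearMap.range (T ^ (j + 1))) + 1 ≤ finrank F (LinearMap.range (T ^ j)) := by
    intro j hj
    have hne : LinearMap.range (T ^ (j + 1)) ≠ LinearMap.range (T ^ j) := fun h => hns (stable_mono hj h)
    have h1 : LinearMap.range (T ^ (j + 1)) < LinearMap.range (T ^ j) := lt_of_le_of_ne (range_pow_succ_le T j) hne
    exact Submodule.finrank_lt_finrank_of_lt h1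
  -- the first step
  have hr0 : finrank F (LinearMap.range (T ^ 0)) = 8 := by
    rw [pow_zero]
    have : LinearMap.range (1 : Module.End F V) = ⊤ := LinearMap.range_eq_top.mpr Function.surjective_id
    rw [this, finrank_top, hfin]
  have hr1 : finrank F (LinearMap.range (T ^ 1)) ≤ 6 := by
    have h1 := hlt 0 (Nat.zero_le _)
    rw [hr0] at h1
    have h2 := LinearMap.finrank_range_add_finrank_ker T
    rw [hfin] at h2
    have h3 : Cfsg.Agent.Lib.OrthGroup.fix g = LinearMap.ker T := rfl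
    rw [h3] at heven
    rw [pow_one] at h1 ⊢
    obtain ⟨c, hc⟩ := heven
    omega
  have hind : ∀ j, 1 ≤ j → j ≤ 2 ^ β → finrank F (LinearMap.range (T ^ j)) + j ≤ 7 := by
    intro j h1j
    induction j, h1j using Nat.le_induction with
    | base => intro _; omega
    | succ j h1j ih =>
      intro hj
      have h2 := ih (by omega)
      have h3 := hlt j (by omega)
      omega
  have hβ1 : 1 ≤ 2 ^ β := Nat.one_le_two_pow
  have hfinal := hind (2 ^ β) hβ1 le_rfl
  have hle8 : LinearMap.range (T ^ 8) ≤ LinearMap.range (T ^ (2 ^ β)) := by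
    have h8 : 8 = 2 ^ β + (8 - 2 ^ β) := by omega
    rw [h8, pow_add]
    exact LinearMap.range_comp_le_range _ _
  have h4 := Submodule.finrank_mono hle8
  have h5 := LinearMap.finrank_range_add_finrank_ker (T ^ 8)
  rw [hfin] at h5
  omega

end LA

end Cfsg.Agent.Lib.GOm
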