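import Mathlib
import Cfsg.Agent.Lib.GOmG
import Cfsg.Agent.Lib.IsoSpec

/-!
# The natural module of the even-rank subgroup of the minus form in dimension eight
-/

set_option autoImplicit false
set_option linter.unusedSectionVars false
set_option linter.unusedSimpArgs false
set_option linter.unusedVariables false
set_option linter.style.haveILetI false

namespace Cfsg.Agent.Lib.GOm

open Module QuadraticMap Finset
open Cfsg.Agent.Lib.QuadFF Cfsg.Agent.Lib.OrthoBasic Cfsg.Agent.Lib.OrthoCount Cfsg.Agent.Lib.QuadClass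
open Cfsg.Agent.Lib.OrthGroup (fix mem_fix)
open Cfsg.Agent.Lib.SpSpec Cfsg.Agent.Lib.SpBasic Cfsg.Agent.Lib.SpCenter

section eigen

variable {F : Type*} [Field F] [Fintype F] [CharP F 2]

/-- An isometry of even rank with nonzero norm can be doubled. -/
theorem R_of_norm {ψ : F → ℤ} (hψ : IsCh ψ) {a b : F} {ha : a ≠ 0} (g : OG (QL a b ha))
    (heven : Even (finrank F (fix (g : (KK → F) ≃ₗ[F] (KK → F)))))
    (hN : ∃ v, Nrm (orderOf g) (g : (KK → F) ≃ₗ[F] (KK → F)) v ≠ 0) :
    R ψ 4 (-1) (2 * orderOf g) := by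
  classical
  set y := toSp a b ha g with hy
  have hyord : orderOf y = orderOf g := orderOf_injective _ (toSp_injective a b ha) g
  have h0 : orderOf y ≠ 0 := (orderOf_pos y).ne'
  obtain ⟨β, a', ha', hn⟩ := Nat.exists_eq_two_pow_mul_odd h0
  have hn' : orderOf y = a' * 2 ^ β := by rw [hn, mul_comm]
  obtain ⟨S, hS, hexp, hc⟩ := spec_mult (F := F) 2 y a' β ha' (Nat.coprime_two_right.mpr ha') hn'
  have hordg : orderOf g = a' * 2 ^ β := by rw [← hyord, hn']
  have hgn : (g : (KK → F) ≃ₗ[F] (KK → F)) ^ (a' * 2 ^ β) = 1 := by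
    rw [← hordg, ← Subgroup.coe_pow, pow_orderOf_eq_one, Subgroup.coe_one]
  have hfin : finrank F (KK → F) = 8 := by simp
  have hla := la_main (g : (KK → F) ≃ₗ[F] (KK → F)) hgn hfin (by rw [← hordg]; exact hN) heven
  -- the multiplicity
  set φ : Module.End F (KK → F) := ((g : (KK → F) ≃ₗ[F] (KK → F)) : (KK → F) →ₗ[F] (KK → F)) with hφ
  have hmult : finrank F (LinearMap.ker ((φ - LinearMap.id : Module.End F (KK → F)) ^ 8)) ≤
      Polynomial.rootMultiplicity (1 : AlgebraicClosure F) (chi (y.1 : Matrix KK KK F)) := by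
    have h1 := LinearMap.finrank_genEigenspace_le φ 1 8
    have h2 : φ.genEigenspace 1 (8 : ℕ) = LinearMap.ker ((φ - LinearMap.id : Module.End F (KK → F)) ^ 8) := by
      rw [Module.End.genEigenspace_nat, one_smul]
      rfl
    rw [h2] at h1
    refine h1.trans (le_of_eq ?_)
    have h3 : (y.1 : Matrix KK KK F) = LinearMap.toMatrix' φ := rfl
    have h4 : φ.charpoly = (y.1 : Matrix KK KK F).charpoly := by
      rw [h3]
      conv_lhs => rw [← Matrix.toLin'_toMatrix' φ]
      exact Matrix.charpoly_toLin' _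
    rw [h4, chi]
    have h5 := Polynomial.eq_rootMultiplicity_map (p := (y.1 : Matrix KK KK F).charpoly)
      (algebraMap F (AlgebraicClosure F)).injective (1 : F)
    rw [h5, map_one]
  have hord2 : 2 * orderOf g = a' * 2 ^ (β + 1) := by
    rw [hordg, pow_succ]
    ring
  rw [hord2]
  refine R_of_closed hψ ha' (coprime_card ha') hS hexp (by omega) ?_
  intro _
  rw [Nat.add_sub_cancel]
  omega

/-- Norm data from closed sets. -/
theorem RG_of_closed {K : Type*} [Field K] [DecidableEq K] {ψ : F → ℤ} (hψ : IsCh ψ) {a α : ℕ} (haodd : Odd a)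
    {S : Finset K} (hS : ClosedSet (Fintype.card F) a S)
    (hexp : IsExp S a) (hα : S.card + 2 ^ α + 1 ≤ 8) :
    RG ψ 4 (-1) (a * 2 ^ α) 0 True := by
  obtain ⟨hev, c, ε, hc, hcexp⟩ := closed_R hψ haodd (coprime_card haodd) S hS
  obtain rfl : c = a := isExp_unique hcexp hexp
  have key : ∀ (u t : ℕ), (∀ ε', RG ψ u ε' t 0 True) → (∃ β, t = 2 ^ β) → (S.card / 2 + u ≤ 4) → RG ψ 4 (-1) (Nat.lcm t c) 0 True := by
    intro u t hU ht hm
    have hpad := RG_of_odd (R_pad hψ (4 - S.card / 2 - u)) (by decide : Odd 1)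
    have h1 := RG.sum hψ (hU (-ε)) hpad (by
      intro _
      rw [Nat.lcm_one_right, Nat.div_self]
      · decide
      · obtain ⟨β, rfl⟩ := ht
        positivity)
    have h2 := RG.sum hψ h1 (RG_of_odd hc haodd) (by
      intro _
      obtain ⟨β, rfl⟩ := ht
      rw [Nat.lcm_one_right]
      have hcop : Nat.Coprime (2 ^ β) c := Nat.Coprime.pow_left _ (Nat.coprime_two_left.mpr haodd)
      rw [hcop.lcm_eq_mul, Nat.mul_div_cancel_left _ (by positivity)]
      exact haodd)
    have h3 : u + (4 - S.card / 2 - u) + S.card / 2 = 4 := by omega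
    have h4 : -ε * 1 * ε = -1 := by
      rcases Int.units_eq_one_or ε with rfl | rfl <;> decide
    rw [h3, h4, Nat.lcm_one_right, show (0 + 0 + 0 : ZMod 2) = 0 from by decide] at h2
    exact h2
  have hcomm : ∀ β, Nat.lcm (2 ^ β) c = c * 2 ^ β := fun β => by
    rw [Nat.lcm_comm]
    exact Nat.Coprime.lcm_eq_mul (Nat.Coprime.pow_right _ (Nat.coprime_two_right.mpr haodd))
  obtain ⟨t, ht⟩ := hev
  rcases (by omega : α = 0 ∨ α = 1 ∨ α = 2 ∨ 3 ≤ α) with rfl | rfl | rfl | h3
  · have := key 1 (2 ^ 0) (RG_id hψ) ⟨0, rfl⟩ (by omega)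
    rwa [hcomm] at this
  · have := key 2 (2 ^ 1) (RG_two hψ) ⟨1, rfl⟩ (by norm_num at hα; omega)
    rwa [hcomm] at this
  · have := key 3 (2 ^ 2) (RG_four hψ) ⟨2, rfl⟩ (by norm_num at hα; omega)
    rwa [hcomm] at this
  · exfalso
    have h2 : 2 ^ 3 ≤ 2 ^ α := Nat.pow_le_pow_right (by norm_num) h3
    omega

end eigen

section AG

variable {F V : Type*} [Field F] [AddCommGroup V] [Module F V] (X : Subgroup (V ≃ₗ[F] V))

/-- The semidirect product of the vector space and a linear group. -/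
@[ext] structure AG where
  v : V
  g : X

namespace AG

variable {X}

instance : Mul (AG X) := ⟨fun x y => ⟨x.v + (x.g : V ≃ₗ[F] V) y.v, x.g * y.g⟩⟩
instance : One (AG X) := ⟨⟨0, 1⟩⟩
instance : Inv (AG X) := ⟨fun x => ⟨-((x.g⁻¹ : X) : V ≃ₗ[F] V) x.v, x.g⁻¹⟩⟩

theorem mul_v (x y : AG X) : (x * y).v = x.v + (x.g : V ≃ₗ[F] V) y.v := rfl
theorem mul_g (x y : AG X) : (x * y).g = x.g * y.g := rfl
theorem one_v : (1 : AG X).v = 0 := rfl
theorem one_g : (1 : AG X).g = 1 := rfl

instance : Group (AG X) := Group.ofLeftAxioms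
  (by
    intro x y z
    ext1
    · rw [mul_v, mul_v, mul_v, mul_v, mul_g, Subgroup.coe_mul, map_add, add_assoc]
      rfl
    · rw [mul_g, mul_g, mul_g, mul_g, mul_assoc])
  (by
    intro x
    ext1
    · rw [mul_v, one_v, one_g, zero_add]
      rfl
    · rw [mul_g, one_g, one_mul])
  (by
    intro x
    ext1
    · rw [mul_v, one_v]
      show -((x.g⁻¹ : X) : V ≃ₗ[F] V) x.v + ((x.g⁻¹ : X) : V ≃ₗ[F] V) x.v = 0
      exact neg_add_cancel _
    · rw [mul_g, one_g]
      exact inv_mul_cancel _)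

theorem pow_eq (x : AG X) (k : ℕ) : x ^ k = ⟨Nrm k (x.g : V ≃ₗ[F] V) x.v, x.g ^ k⟩ := by
  induction k with
  | zero =>
    rw [pow_zero, pow_zero]
    ext1
    · simp [Nrm, one_v]
    · rfl
  | succ k ih =>
    rw [pow_succ, ih]
    ext1
    · rw [mul_v]
      show Nrm k (x.g : V ≃ₗ[F] V) x.v + ((x.g ^ k : X) : V ≃ₗ[F] V) x.v = Nrm (k + 1) (x.g : V ≃ₗ[F] V) x.v
      unfold Nrm
      rw [Finset.sum_range_succ]
      rfl
    · rw [mul_g, pow_succ]

/-- The projection to the linear group. -/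
def proj : AG X →* X where
  toFun x := x.g
  map_one' := rfl
  map_mul' _ _ := rfl

theorem orderOf_of_zero (x : AG X) (h : Nrm (orderOf x.g) (x.g : V ≃ₗ[F] V) x.v = 0) : orderOf x = orderOf x.g := by
  apply Nat.dvd_antisymm
  · apply orderOf_dvd_of_pow_eq_one
    rw [pow_eq, h, pow_orderOf_eq_one]
    rfl
  · apply orderOf_dvd_of_pow_eq_one
    have := congrArg AG.g (pow_eq x (orderOf x))
    rw [pow_orderOf_eq_one] at this
    exact this.symm

theorem orderOf_of_ne [CharP F 2] (x : AG X) (h : Nrm (orderOf x.g) (x.g : V ≃ₗ[F] V) x.v ≠ 0) (h0 : orderOf x.g ≠ 0) :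
    orderOf x = 2 * orderOf x.g := by
  have h1 : x ^ orderOf x.g = ⟨Nrm (orderOf x.g) (x.g : V ≃ₗ[F] V) x.v, 1⟩ := by
    rw [pow_eq, pow_orderOf_eq_one]
  have h2 : x ^ (2 * orderOf x.g) = 1 := by
    rw [mul_comm, pow_mul, h1, pow_two]
    ext1
    · rw [mul_v, one_v]
      show Nrm (orderOf x.g) (x.g : V ≃ₗ[F] V) x.v + ((1 : X) : V ≃ₗ[F] V) (Nrm (orderOf x.g) (x.g : V ≃ₗ[F] V) x.v) = 0
      have h3 : ∀ y : V, y + y = 0 := by
        intro y
        have : (2 : F) • y = 0 := by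
          rw [CharTwo.two_eq_zero, zero_smul]
        rwa [two_smul] at this
      exact h3 _
    · rw [mul_g, one_g]
      exact mul_one _
  have h3 : orderOf x ∣ 2 * orderOf x.g := orderOf_dvd_of_pow_eq_one h2
  have h4 : orderOf x.g ∣ orderOf x := by
    apply orderOf_dvd_of_pow_eq_one
    have := congrArg AG.g (pow_eq x (orderOf x))
    rw [pow_orderOf_eq_one] at this
    exact this.symm
  obtain ⟨c, hc⟩ := h4
  rw [hc, mul_comm 2] at h3
  have hc2 : c ∣ 2 := Nat.dvd_of_mul_dvd_mul_left (Nat.pos_of_ne_zero h0) h3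
  have hc3 : c = 1 ∨ c = 2 := (Nat.dvd_prime Nat.prime_two).mp hc2
  rcases hc3 with rfl | rfl
  · exfalso
    apply h
    have h5 := pow_orderOf_eq_one x
    rw [hc, mul_one, h1] at h5
    exact congrArg AG.v h5
  · rw [hc, mul_comm]

end AG

end AG

section group

variable {F V : Type*} [Field F] [AddCommGroup V] [Module F V]

open Cfsg.Agent.Lib.OrthGroup Cfsg.Agent.Lib.OrthOmega in
/-- Products of reflections and the parity of the fixed space. -/
theorem even_fix_iff [FiniteDimensional F V] {Q : QuadraticForm F V} (hQ : ND Q) (hev : Even (finrank F V)) (L : List V)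
    (hL : ∀ v ∈ L, Q v ≠ 0) : Even (finrank F (fix (prodR Q L))) ↔ Even L.length := by
  have h := parity_prodR (nondegenerate_of_ND hQ) L hL
  rw [Nat.even_add, Nat.even_add] at h
  tauto

open Cfsg.Agent.Lib.OrthGroup Cfsg.Agent.Lib.OrthOmega in
/-- The even rank subgroup. -/
noncomputable def evenO [FiniteDimensional F V] (Q : QuadraticForm F V) (hQ : ND Q) (hev : Even (finrank F V)) (hd : finrank F V ≠ 4) :
    Subgroup (V ≃ₗ[F] V) where
  carrier := {g | g ∈ OG Q ∧ Even (finrank F (fix g))}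
  mul_mem' := by
    rintro a b ⟨ha, ha'⟩ ⟨hb, hb'⟩
    refine ⟨(OG Q).mul_mem ha hb, ?_⟩
    obtain ⟨L, hL, rfl⟩ := exists_list_of_mem_G (O_le_G (nondegenerate_of_ND hQ) (Or.inr hd) ha)
    obtain ⟨L', hL', rfl⟩ := exists_list_of_mem_G (O_le_G (nondegenerate_of_ND hQ) (Or.inr hd) hb)
    rw [even_fix_iff hQ hev L hL] at ha'
    rw [even_fix_iff hQ hev L' hL'] at hb'
    rw [← prodR_append, even_fix_iff hQ hev (L ++ L') (by
      intro v hv
      rcases List.mem_append.mp hv with h | h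
      · exact hL v h
      · exact hL' v h), List.length_append]
    exact ha'.add hb'
  one_mem' := by
    refine ⟨(OG Q).one_mem, ?_⟩
    rw [fix_one, finrank_top]
    exact hev
  inv_mem' := by
    rintro a ⟨ha, ha'⟩
    refine ⟨(OG Q).inv_mem ha, ?_⟩
    obtain ⟨L, hL, rfl⟩ := exists_list_of_mem_G (O_le_G (nondegenerate_of_ND hQ) (Or.inr hd) ha)
    rw [even_fix_iff hQ hev L hL] at ha'
    rw [← prodR_reverse, even_fix_iff hQ hev L.reverse (fun v hv => hL v (List.mem_reverse.mp hv)), List.length_reverse]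
    exact ha'

end group

end Cfsg.Agent.Lib.GOm
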