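import Mathlib
import Cfsg.Agent.Lib.GOmH

/-!
# `PSp(8, q)`, `q` even, is not determined by its spectrum
-/

set_option autoImplicit false
set_option linter.unusedSectionVars false
set_option linter.unusedSimpArgs false
set_option linter.unusedVariables false
set_option linter.style.haveILetI false

namespace Cfsg.Agent.Lib.GOm

open Module QuadraticMap Finset
open Cfsg.Agent.Lib.QuadFF Cfsg.Agent.Lib.OrthoBasic Cfsg.Agent.Lib.OrthoCount Cfsg.Agent.Lib.QuadClass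
open Cfsg.Agent.Lib.OrthGroup (fix mem_fix)
open Cfsg.Agent.Lib.SpSpec Cfsg.Agent.Lib.SpBasic Cfsg.Agent.Lib.SpCenter

variable {F : Type*} [Field F] [Fintype F] [CharP F 2]

theorem QL_of_qMinus (a b : F) (ha : a ≠ 0) : ∀ v, QL a b ha ((LL a ha).symm v) = qMinus 3 a b v := by
  intro v
  rw [← QL_LL, LinearEquiv.apply_symm_apply]

theorem R_to_PSp {ψ : F → ℤ} (hψ : IsCh ψ) {ζ : F} (hζ : ∀ t : F, t ^ 2 + t + ζ ≠ 0) {n : ℕ} (h : R ψ 4 (-1) n) :
    n ∈ Set.range (orderOf : Cfsg.PSp 4 F → ℕ) := by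
  obtain ⟨g, rfl⟩ := R.to_target hψ h 1 ζ (Cfsg.Agent.Lib.QuadClass2.ani_of_zeta hζ)
  let g' := OG.congr (LL (1 : F) one_ne_zero).symm (QL_of_qMinus (1 : F) ζ one_ne_zero) g
  refine ⟨projSp 4 F (toSp 1 ζ one_ne_zero g'), ?_⟩
  rw [orderOf_projSp_char_two, orderOf_injective _ (toSp_injective 1 ζ one_ne_zero), MulEquiv.orderOf_eq]

theorem hfinKK : finrank F (KK → F) = 8 := by simp

/-- The form. -/
noncomputable abbrev QZ (ζ : F) : QuadraticForm F (KK → F) := QL 1 ζ one_ne_zero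

/-- The group. -/
noncomputable abbrev XZ (ζ : F) : Subgroup ((KK → F) ≃ₗ[F] (KK → F)) :=
  evenO (QZ ζ) (ND_QL 1 ζ one_ne_zero) (by rw [hfinKK]; decide) (by rw [hfinKK]; decide)

instance instFiniteEnd : Finite ((KK → F) ≃ₗ[F] (KK → F)) :=
  Finite.of_injective (fun g => (g : (KK → F) → (KK → F))) (fun a b h => LinearEquiv.coe_injective h)

instance instFiniteAG (ζ : F) : Finite (AG (XZ ζ)) :=
  Finite.of_injective (fun x : AG (XZ ζ) => (x.v, x.g)) (fun a b h => by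
    have h1 := congrArg Prod.fst h
    have h2 := congrArg Prod.snd h
    exact AG.ext h1 h2)

theorem Nrm_zero {V : Type*} [AddCommGroup V] [Module F V] (n : ℕ) (g : V ≃ₗ[F] V) : Nrm n g (0 : V) = 0 := by
  simp [Nrm]

theorem parity_even {n : ℕ} (h : ((n : ℕ) : ZMod 2) = 0) : Even n := ZMod.natCast_eq_zero_iff_even.mp h

theorem spec_AG {ψ : F → ℤ} (hψ : IsCh ψ) {ζ : F} (hζ : ∀ t : F, t ^ 2 + t + ζ ≠ 0) :
    Set.range (orderOf : AG (XZ ζ) → ℕ) = Set.range (orderOf : Cfsg.PSp 4 F → ℕ) := by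
  classical
  have hab := Cfsg.Agent.Lib.QuadClass2.ani_of_zeta hζ
  have hL : ∀ w, qMinus 3 (1 : F) ζ (LL (1 : F) one_ne_zero w) = QZ ζ w := QL_LL 1 ζ one_ne_zero
  ext n
  constructor
  · rintro ⟨x, rfl⟩
    let g0 : OG (QZ ζ) := ⟨(x.g : (KK → F) ≃ₗ[F] (KK → F)), x.g.2.1⟩
    have hg0 : orderOf g0 = orderOf x.g := by
      rw [← Subgroup.orderOf_coe g0, ← Subgroup.orderOf_coe x.g]
    by_cases h : Nrm (orderOf x.g) (x.g : (KK → F) ≃ₗ[F] (KK → F)) x.v = 0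
    · rw [AG.orderOf_of_zero x h, ← hg0]
      refine ⟨projSp 4 F (toSp 1 ζ one_ne_zero g0), ?_⟩
      rw [orderOf_projSp_char_two, orderOf_injective _ (toSp_injective 1 ζ one_ne_zero)]
    · rw [AG.orderOf_of_ne x h (orderOf_pos x.g).ne', ← hg0]
      refine R_to_PSp hψ hζ (R_of_norm hψ g0 x.g.2.2 ⟨x.v, ?_⟩)
      rw [hg0]
      exact h
  · rintro ⟨y, rfl⟩
    obtain ⟨z, rfl⟩ := projSp_surjective 4 y
    rw [orderOf_projSp_char_two]
    have h0 : orderOf z ≠ 0 := (orderOf_pos z).ne'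
    obtain ⟨α, a, ha, hn⟩ := Nat.exists_eq_two_pow_mul_odd h0
    have hn' : orderOf z = a * 2 ^ α := by rw [hn, mul_comm]
    obtain ⟨S, hS, hexp, hc, hb⟩ := spec_main (F := F) 2 z a α ha (Nat.coprime_two_right.mpr ha) hn'
    rcases Nat.eq_zero_or_pos α with rfl | hα
    · -- odd order
      have h1 := R_of_Sp hψ z
      rw [hn', pow_zero, mul_one] at h1
      obtain ⟨g, hg, hπ, -⟩ := RG.target hψ (RG_of_odd h1 ha) 1 ζ hab (QZ ζ) (LL (1 : F) one_ne_zero) hL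
      let x : AG (XZ ζ) := ⟨0, ⟨(g : (KK → F) ≃ₗ[F] (KK → F)), g.2, parity_even hπ⟩⟩
      have hxg : orderOf x.g = orderOf g := by
        rw [← Subgroup.orderOf_coe x.g, ← Subgroup.orderOf_coe g]
      refine ⟨x, ?_⟩
      rw [AG.orderOf_of_zero x (Nrm_zero _ _), hxg, hg, hn', pow_zero, mul_one]
    · have hb1 := hb hα
      have h1 := RG_of_closed hψ ha hS hexp (α := α - 1) hb1
      obtain ⟨g, hg, hπ, hv⟩ := RG.target hψ h1 1 ζ hab (QZ ζ) (LL (1 : F) one_ne_zero) hL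
      obtain ⟨v, hv⟩ := hv trivial
      let x : AG (XZ ζ) := ⟨v, ⟨(g : (KK → F) ≃ₗ[F] (KK → F)), g.2, parity_even hπ⟩⟩
      have hxg : orderOf x.g = orderOf g := by
        rw [← Subgroup.orderOf_coe x.g, ← Subgroup.orderOf_coe g]
      refine ⟨x, ?_⟩
      have hne : Nrm (orderOf x.g) (x.g : (KK → F) ≃ₗ[F] (KK → F)) x.v ≠ 0 := by
        rw [hxg, hg]
        exact hv
      rw [AG.orderOf_of_ne x hne (orderOf_pos x.g).ne', hxg, hg, hn']
      have h2 : α = (α - 1) + 1 := by omega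
      conv_rhs => rw [h2, pow_succ]
      ring

/-- The final statement. -/
theorem large_exists (M : ℕ) :
    ∃ (H : Type) (_ : Group H) (_ : Fintype H), M < Fintype.card H ∧
      Set.range (orderOf : H → ℕ) = Set.range (orderOf : Cfsg.PSp 4 F → ℕ) := by
  classical
  obtain ⟨ψ, hψ⟩ := exists_ch F
  obtain ⟨ζ, hζ⟩ := exists_ani F
  let V₀ : Subgroup (AG (XZ ζ)) := (AG.proj (X := XZ ζ)).ker
  have hV₀ : V₀.Normal := MonoidHom.normal_ker _
  have hne : V₀ ≠ ⊥ := by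
    intro h
    let x : AG (XZ ζ) := ⟨1, 1⟩
    have hx : x ∈ V₀ := rfl
    rw [h, Subgroup.mem_bot] at hx
    have h1 := congrArg AG.v hx
    have h2 : (1 : KK → F) = 0 := h1
    have h3 := congrFun h2 (Sum.inl 0)
    exact one_ne_zero h3
  have hexp : ∀ v ∈ V₀, v ^ 2 = 1 := by
    intro v hv
    have hg : v.g = 1 := hv
    rw [pow_two]
    ext1
    · rw [AG.mul_v, hg]
      show v.v + v.v = 0
      have : (2 : F) • v.v = 0 := by
        rw [CharTwo.two_eq_zero, zero_smul]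
      rwa [two_smul] at this
    · rw [AG.mul_g, hg, mul_one]
      rfl
  obtain ⟨H, i1, i2, hc, hr⟩ := Cfsg.Agent.Lib.IsoSpec.exists_large_of_normal V₀ hne 2 Nat.prime_two hexp M
  exact ⟨H, i1, i2, hc, hr.trans (spec_AG hψ hζ)⟩

end Cfsg.Agent.Lib.GOm
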