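import Mathlib
import Cfsg.Agent.Lib.Gagola2

/-!
# Gagola, third part: centralizers in the quotient, centre of Sylow, upper central series
-/

set_option autoImplicit false
set_option linter.unusedSectionVars false
set_option linter.unusedVariables false

namespace Cfsg.Agent.Lib.Gagola3

open Cfsg Cfsg.Agent.Lib.CharBasic Cfsg.Agent.Lib.CharInd Cfsg.Agent.Lib.CharAvg
open Cfsg.Agent.Lib.CharKernel Cfsg.Agent.Lib.CharNormal Cfsg.Agent.Lib.CharInduction
open Cfsg.Agent.Lib.Gagola Cfsg.Agent.Lib.Gagola2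
open scoped ComplexConjugate

universe u

variable {G : Type u} [Group G] [Fintype G] {χ : G → ℂ} {N : Subgroup G} 

/-- Part (a): `|C_G(x)| = |C_{G/N}(xN)|` for `x` outside `N`. -/
theorem card_centralizer_quotient (D : Data χ N) {x : G} (hx : x ∉ N) :
    Nat.card (Subgroup.centralizer ({x} : Set G)) =
      (haveI := D.normal; Nat.card (Subgroup.centralizer ({(x : G ⧸ N)} : Set (G ⧸ N)))) := by
  classical
  haveI := D.normal
  haveI : Fintype (G ⧸ N) := Fintype.ofFinite _
  have h1 := sum_irr_mul_conj x x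
  rw [if_pos (IsConj.refl _)] at h1
  have h2 := sum_irr_mul_conj (x : G ⧸ N) (x : G ⧸ N)
  rw [if_pos (IsConj.refl _)] at h2
  have hχx : χ x = 0 := by
    by_contra h0
    exact hx ((D.mem x).mpr h0)
  let χ' : IrrCharacter G := ⟨χ, D.irr⟩
  rw [← Finset.add_sum_erase _ _ (Finset.mem_univ χ')] at h1
  have hfirst : (χ' : G → ℂ) x * conj ((χ' : G → ℂ) x) = 0 := by
    show χ x * _ = 0
    rw [hχx, zero_mul]
  rw [hfirst, zero_add] at h1
  have hπ : Function.Surjective (QuotientGroup.mk' N) := QuotientGroup.mk'_surjective N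
  let lift : IrrCharacter (G ⧸ N) → IrrCharacter G := fun ψ =>
    ⟨fun g => (ψ : G ⧸ N → ℂ) (g : G ⧸ N), isIrrCharacter_comp_of_surjective (QuotientGroup.mk' N) hπ ψ.2⟩
  have hsum : ∑ ψ : IrrCharacter (G ⧸ N), (ψ : G ⧸ N → ℂ) (x : G ⧸ N) * conj ((ψ : G ⧸ N → ℂ) (x : G ⧸ N)) =
      ∑ ψ ∈ Finset.univ.erase χ', (ψ : G → ℂ) x * conj ((ψ : G → ℂ) x) := by
    apply Finset.sum_bij (fun ψ _ => lift ψ)
    · intro ψ _
      refine Finset.mem_erase.mpr ⟨?_, Finset.mem_univ _⟩
      intro h
      -- `χ` would be trivial on `N`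
      obtain ⟨y, hy, hy1⟩ := D.exists_x₀
      have h3 : χ y = χ 1 := by
        have : (lift ψ : G → ℂ) = χ := congrArg Subtype.val h
        rw [← this]
        show (ψ : G ⧸ N → ℂ) (y : G ⧸ N) = (ψ : G ⧸ N → ℂ) ((1 : G) : G ⧸ N)
        rw [(QuotientGroup.eq_one_iff y).mpr hy, QuotientGroup.mk_one]
      exact hy1 (D.faithful h3)
    · intro a _ b _ hab
      apply Subtype.ext
      funext g
      obtain ⟨g', rfl⟩ := QuotientGroup.mk_surjective g
      have : (lift a : G → ℂ) g' = (lift b : G → ℂ) g' := by rw [hab]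
      exact this
    · intro ψ hψ
      have hne : ψ ≠ χ' := Finset.ne_of_mem_erase hψ
      have hne' : (ψ : G → ℂ) ≠ χ := fun h => hne (Subtype.ext h)
      obtain ⟨ψ', h3, h4⟩ := exists_quotient_irr N ψ.2 (fun y hy => D.other ψ.2 hne' hy)
      refine ⟨⟨ψ', h3⟩, Finset.mem_univ _, ?_⟩
      apply Subtype.ext
      funext g
      exact h4 g
    · intro ψ _
      rfl
  rw [hsum, h1] at h2
  exact_mod_cast h2

section Sylow

variable (D : Data χ N) (p : ℕ) [hp : Fact p.Prime] (hNp : IsPGroup p N) (P : Sylow p G)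
include D hNp

theorem le_sylow : N ≤ P := by
  haveI := D.normal
  have h1 : IsPGroup p ↥((P : Subgroup G) ⊔ N) := P.isPGroup'.to_sup_of_normal_right hNp
  have h2 := P.is_maximal' h1 le_sup_left
  rw [← h2]
  exact le_sup_right

/-- The key divisibility. -/
theorem card_mul_dvd {x : G} (hx : x ∉ N) {A : Subgroup G} (hA : A ≤ Subgroup.centralizer ({x} : Set G))
    (hAp : IsPGroup p A) : Nat.card A * Nat.card N ∣ Nat.card P := by
  classical
  haveI := D.normal
  obtain ⟨a, ha⟩ := IsPGroup.iff_card.mp hAp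
  obtain ⟨n, hn⟩ := IsPGroup.iff_card.mp hNp
  have h1 : Nat.card A ∣ Nat.card (Subgroup.centralizer ({x} : Set G)) :=
    Subgroup.card_dvd_of_le hA
  rw [card_centralizer_quotient D hx] at h1
  have h2 : Nat.card (Subgroup.centralizer ({(x : G ⧸ N)} : Set (G ⧸ N))) ∣ Nat.card (G ⧸ N) :=
    Subgroup.card_subgroup_dvd_card _
  have h3 : Nat.card A ∣ Nat.card (G ⧸ N) := h1.trans h2
  have h4 : Nat.card G = Nat.card (G ⧸ N) * Nat.card N :=
    Subgroup.card_eq_card_quotient_mul_card_subgroup N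
  have h5 : Nat.card A * Nat.card N ∣ Nat.card G := by
    rw [h4]
    exact Nat.mul_dvd_mul_right h3 _
  rw [ha, hn, ← pow_add] at h5 ⊢
  exact P.pow_dvd_card_of_pow_dvd_card h5

/-- Part (b), first half. -/
theorem center_le : (Subgroup.center (P : Subgroup G)).map (P : Subgroup G).subtype ≤ N := by
  rintro _ ⟨z, hz, rfl⟩
  by_contra hzN
  have hle : (P : Subgroup G) ≤ Subgroup.centralizer ({((z : P) : G)} : Set G) := by
    intro g hg
    rw [Subgroup.mem_centralizer_iff]
    rintro _ rfl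
    have := Subgroup.mem_center_iff.mp hz ⟨g, hg⟩
    exact (congrArg Subtype.val this).symm
  have h1 := card_mul_dvd D p hNp P hzN hle P.isPGroup'
  have h2 : Nat.card N = 1 := by
    have hpos : 0 < Nat.card (P : Subgroup G) := Nat.card_pos
    have h3 := Nat.le_of_dvd hpos h1
    have h4 : 0 < Nat.card N := Nat.card_pos
    have h5 : Nat.card (P : Subgroup G) * Nat.card N ≤ Nat.card (P : Subgroup G) * 1 := by
      rwa [mul_one]
    have h6 := Nat.le_of_mul_le_mul_left h5 hpos
    omega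
  have := D.one_lt_card
  omega

/-- Part (b), second half. -/
theorem center_eq_iff :
    (Subgroup.center (P : Subgroup G)).map (P : Subgroup G).subtype = N ↔ (P : Subgroup G).Normal := by
  classical
  have hNP := le_sylow D p hNp P
  haveI hNn := D.normal
  constructor
  · intro h
    obtain ⟨x, hx, hx1⟩ := D.exists_x₀
    have hNcen : ∀ n ∈ N, ∀ g ∈ (P : Subgroup G), g * n = n * g := by
      intro n hn g hg
      rw [← h] at hn
      obtain ⟨z, hz, rfl⟩ := hn
      have := Subgroup.mem_center_iff.mp hz ⟨g, hg⟩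
      exact congrArg Subtype.val this
    -- P is the centralizer of x
    have hle : (P : Subgroup G) ≤ Subgroup.centralizer ({x} : Set G) := by
      intro g hg
      rw [Subgroup.mem_centralizer_iff]
      intro y hy
      rw [Set.mem_singleton_iff.mp hy]
      exact (hNcen x hx g hg).symm
    have hCp := Data.centralizer_isPGroup D p hNp hx hx1
    have hPC := P.is_maximal' hCp hle
    constructor
    intro h' hh' g
    have hh'C : h' ∈ Subgroup.centralizer ({x} : Set G) := hle hh'
    show g * h' * g⁻¹ ∈ (P : Subgroup G)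
    rw [← hPC, Subgroup.mem_centralizer_iff]
    intro y hy'
    rw [Set.mem_singleton_iff.mp hy']
    have hy : g⁻¹ * x * g ∈ N := by
      have := hNn.conj_mem x hx g⁻¹
      simpa using this
    have hc := hNcen _ hy h' hh'
    calc x * (g * h' * g⁻¹) = g * ((g⁻¹ * x * g) * h') * g⁻¹ := by group
      _ = g * (h' * (g⁻¹ * x * g)) * g⁻¹ := by rw [hc]
      _ = g * h' * g⁻¹ * x := by group
  · intro hPn
    apply le_antisymm (center_le D p hNp P)
    apply D.le_of_normal
    · constructor
      rintro _ ⟨z, hz, rfl⟩ g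
      have hmem : g * ((z : P) : G) * g⁻¹ ∈ (P : Subgroup G) := hPn.conj_mem _ z.2 g
      refine ⟨⟨_, hmem⟩, ?_, rfl⟩
      show _ ∈ Subgroup.center _
      rw [Subgroup.mem_center_iff]
      intro k
      apply Subtype.ext
      show (k : G) * (g * ((z : P) : G) * g⁻¹) = (g * ((z : P) : G) * g⁻¹) * (k : G)
      have hk : g⁻¹ * (k : G) * g ∈ (P : Subgroup G) := by
        have := hPn.conj_mem _ k.2 g⁻¹
        simpa using this
      have hc := Subgroup.mem_center_iff.mp hz ⟨_, hk⟩
      have hc' : (g⁻¹ * (k : G) * g) * ((z : P) : G) = ((z : P) : G) * (g⁻¹ * (k : G) * g) :=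
        congrArg Subtype.val hc
      calc (k : G) * (g * ((z : P) : G) * g⁻¹) = g * ((g⁻¹ * (k : G) * g) * ((z : P) : G)) * g⁻¹ := by group
        _ = g * (((z : P) : G) * (g⁻¹ * (k : G) * g)) * g⁻¹ := by rw [hc']
        _ = (g * ((z : P) : G) * g⁻¹) * (k : G) := by group
    · -- the centre is nontrivial
      haveI : Nontrivial (P : Subgroup G) := by
        obtain ⟨x, hx, hx1⟩ := D.exists_x₀
        exact ⟨⟨⟨x, hNP hx⟩, 1, fun h => hx1 (congrArg Subtype.val h)⟩⟩
      haveI := P.isPGroup'.center_nontrivial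
      obtain ⟨z, hz⟩ := exists_ne (1 : Subgroup.center (P : Subgroup G))
      intro hbot
      have h1 : ((z : P) : G) ∈ (Subgroup.center (P : Subgroup G)).map (P : Subgroup G).subtype :=
        ⟨z, z.2, rfl⟩
      rw [hbot, Subgroup.mem_bot] at h1
      apply hz
      apply Subtype.ext
      apply Subtype.ext
      exact h1

/-- Step for part (c). -/
theorem upper_step {i : ℕ}
    (hi : Subgroup.upperCentralSeries (P : Subgroup G) i ≤ N.subgroupOf (P : Subgroup G))
    (hni : ¬ Subgroup.upperCentralSeries (P : Subgroup G) (i + 1) ≤ N.subgroupOf (P : Subgroup G)) :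
    N.subgroupOf (P : Subgroup G) ≤ Subgroup.upperCentralSeries (P : Subgroup G) i := by
  classical
  haveI : Fintype ↥(P : Subgroup G) := Fintype.ofFinite _
  obtain ⟨x, hxU, hxN⟩ := SetLike.not_le_iff_exists.mp hni
  have hxN' : (x : G) ∉ N := by
    intro h
    exact hxN (Subgroup.mem_subgroupOf.mpr h)
  have hxinv : x⁻¹ ∈ Subgroup.upperCentralSeries (P : Subgroup G) (i + 1) :=
    Subgroup.inv_mem _ hxU
  rw [Subgroup.mem_upperCentralSeries_succ_iff] at hxinv
  let Φ : ↥(P : Subgroup G) → G := fun g => ((x : G))⁻¹ * g * x * (g : G)⁻¹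
  have hΦU : ∀ g : ↥(P : Subgroup G), (x⁻¹ * g * x⁻¹⁻¹ * g⁻¹) ∈ Subgroup.upperCentralSeries (P : Subgroup G) i :=
    fun g => hxinv g
  have hΦN : ∀ g, Φ g ∈ N := by
    intro g
    have := hi (hΦU g)
    rw [Subgroup.mem_subgroupOf] at this
    simpa [Φ] using this
  let A : Subgroup G := Subgroup.centralizer ({(x : G)} : Set G) ⊓ (P : Subgroup G)
  have hAp : IsPGroup p A := P.isPGroup'.to_le inf_le_right
  have hdvd := card_mul_dvd D p hNp P hxN' (A := A) inf_le_left hAp
  have hle1 : Nat.card A * Nat.card N ≤ Nat.card (P : Subgroup G) :=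
    Nat.le_of_dvd Nat.card_pos hdvd
  haveI : Fintype A := Fintype.ofFinite _
  have hfib : ∀ a ∈ (Finset.univ : Finset ↥(P : Subgroup G)).image Φ,
      ((Finset.univ : Finset ↥(P : Subgroup G)).filter (fun g => Φ g = a)).card ≤ Nat.card A := by
    intro a ha
    obtain ⟨g₀, -, rfl⟩ := Finset.mem_image.mp ha
    rw [Nat.card_eq_fintype_card]
    have hmemA : ∀ g : ↥(P : Subgroup G), Φ g = Φ g₀ → (g₀ : G)⁻¹ * g ∈ A := by
      intro g hg
      refine ⟨?_, (P : Subgroup G).mul_mem ((P : Subgroup G).inv_mem g₀.2) g.2⟩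
      show _ ∈ Subgroup.centralizer _
      rw [Subgroup.mem_centralizer_iff]
      intro y hy'
      rw [Set.mem_singleton_iff.mp hy']
      have h1 : (x : G)⁻¹ * g * x * (g : G)⁻¹ = (x : G)⁻¹ * g₀ * x * (g₀ : G)⁻¹ := hg
      have h2 : (g : G) * x * (g : G)⁻¹ = (g₀ : G) * x * (g₀ : G)⁻¹ := by
        have h3 : (x : G) * ((x : G)⁻¹ * g * x * (g : G)⁻¹) = (x : G) * ((x : G)⁻¹ * g₀ * x * (g₀ : G)⁻¹) := by
          rw [h1]
        simpa [mul_assoc] using h3
      calc (x : G) * ((g₀ : G)⁻¹ * g) = (g₀ : G)⁻¹ * ((g₀ : G) * x * (g₀ : G)⁻¹) * g := by group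
        _ = (g₀ : G)⁻¹ * ((g : G) * x * (g : G)⁻¹) * g := by rw [h2]
        _ = (g₀ : G)⁻¹ * g * x := by group
    let F : {g : ↥(P : Subgroup G) // Φ g = Φ g₀} → A := fun g => ⟨(g₀ : G)⁻¹ * g.1, hmemA g.1 g.2⟩
    have hF : Function.Injective F := by
      intro a b hab
      have h3 : (g₀ : G)⁻¹ * a.1 = (g₀ : G)⁻¹ * b.1 := congrArg Subtype.val hab
      exact Subtype.ext (Subtype.ext (mul_left_cancel h3))
    have := Fintype.card_le_of_injective F hF
    rwa [Fintype.card_subtype] at this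
  have hcard := Finset.card_le_mul_card_image (Finset.univ : Finset ↥(P : Subgroup G)) (Nat.card A) hfib
  rw [Finset.card_univ, ← Nat.card_eq_fintype_card] at hcard
  have hAN : Nat.card N ≤ ((Finset.univ : Finset ↥(P : Subgroup G)).image Φ).card := by
    have hpos : 0 < Nat.card A := Nat.card_pos
    exact Nat.le_of_mul_le_mul_left (hle1.trans hcard) hpos
  have hsub : (Finset.univ : Finset ↥(P : Subgroup G)).image Φ ⊆ (Finset.univ.filter (· ∈ N) : Finset G) := by
    intro a ha
    obtain ⟨g, -, rfl⟩ := Finset.mem_image.mp ha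
    simp [hΦN g]
  have hNc : (Finset.univ.filter (· ∈ N) : Finset G).card = Nat.card N := by
    rw [Nat.card_eq_fintype_card, Fintype.card_subtype]
  have heq := Finset.eq_of_subset_of_card_le hsub (by rw [hNc]; exact hAN)
  intro n hn
  have hn' : (n : G) ∈ (Finset.univ.filter (· ∈ N) : Finset G) := by
    simpa using Subgroup.mem_subgroupOf.mp hn
  rw [← heq] at hn'
  obtain ⟨g, -, hg⟩ := Finset.mem_image.mp hn'
  have : n = (x⁻¹ * g * x⁻¹⁻¹ * g⁻¹) := by
    apply Subtype.ext
    rw [← hg]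
    simp [Φ]
  rw [this]
  exact hΦU g

/-- Part (c). -/
theorem exists_upper : ∃ i : ℕ, Subgroup.upperCentralSeries (P : Subgroup G) i =
    N.subgroupOf (P : Subgroup G) := by
  haveI : Group.IsNilpotent (P : Subgroup G) := P.isPGroup'.isNilpotent
  obtain ⟨n, hn⟩ := Group.IsNilpotent.nilpotent' (G := (P : Subgroup G))
  have key : ∀ i : ℕ, (∃ j, Subgroup.upperCentralSeries (P : Subgroup G) j = N.subgroupOf (P : Subgroup G)) ∨
      Subgroup.upperCentralSeries (P : Subgroup G) i ≤ N.subgroupOf (P : Subgroup G) := by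
    intro i
    induction i with
    | zero =>
      right
      rw [Subgroup.upperCentralSeries_zero]
      exact bot_le
    | succ i ih =>
      rcases ih with h | h
      · exact Or.inl h
      · by_cases h2 : Subgroup.upperCentralSeries (P : Subgroup G) (i + 1) ≤ N.subgroupOf (P : Subgroup G)
        · exact Or.inr h2
        · exact Or.inl ⟨i, le_antisymm h (upper_step D p hNp P h h2)⟩
  rcases key n with h | h
  · exact h
  · refine ⟨n, le_antisymm h ?_⟩
    rw [hn]
    exact le_top

end Sylow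

end Cfsg.Agent.Lib.Gagola3
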