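import Mathlib
import Cfsg.Agent.Lib.Q8Aut

/-! `Aut(Q₈)` embeds in `Sym(4)`: it acts faithfully on the four diagonals of the cube whose
faces are the elements of order four. -/

set_option autoImplicit false

namespace Cfsg.Agent.Lib.Q8AutPerm

open Cfsg.Agent.Lib.Q8Aut QuaternionGroup

/-- The vertices of the cube. -/
def T : Fin 4 → Finset Q8
  | 0 => {a 1, xa 0, xa 1}
  | 1 => {a 1, xa 2, xa 3}
  | 2 => {a 3, xa 0, xa 3}
  | 3 => {a 3, xa 2, xa 1}

/-- The antipodal vertices of the cube. -/
def T' : Fin 4 → Finset Q8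
  | 0 => {a 3, xa 2, xa 3}
  | 1 => {a 3, xa 0, xa 1}
  | 2 => {a 1, xa 2, xa 1}
  | 3 => {a 1, xa 0, xa 3}

/-- The diagonals of the cube. -/
def D (i : Fin 4) : Finset (Finset Q8) := {T i, T' i}

theorem img_mem : ∀ p : Q8 × Q8, CondQ p → ∀ i : Fin 4, ∃ j : Fin 4,
    (D i).image (Finset.image (fQ p.1 p.2)) = D j := by
  decide +kernel

theorem D_inj : Function.Injective D := by
  have : ∀ i j : Fin 4, D i = D j → i = j := by decide +kernel
  exact fun i j h => this i j h

theorem faithful_pair : ∀ p : Q8 × Q8, CondQ p →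
    (∀ i : Fin 4, (D i).image (Finset.image (fQ p.1 p.2)) = D i) →
    p = (a 1, xa 0) := by
  decide +kernel

theorem fQ_eq (f : MulAut Q8) : fQ (f (a 1)) (f (xa 0)) = ⇑f := by
  funext x
  exact (aut_apply f x).symm

theorem exists_t (f : MulAut Q8) (i : Fin 4) : ∃ j : Fin 4,
    (D i).image (Finset.image ⇑f) = D j := by
  have h := img_mem (f (a 1), f (xa 0)) (aut_cond f) i
  simpa only [fQ_eq] using h

/-- The action on diagonals. -/
noncomputable def t (f : MulAut Q8) (i : Fin 4) : Fin 4 := Classical.choose (exists_t f i)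

theorem t_spec (f : MulAut Q8) (i : Fin 4) :
    (D i).image (Finset.image ⇑f) = D (t f i) := Classical.choose_spec (exists_t f i)

theorem t_mul (f g : MulAut Q8) (i : Fin 4) : t (f * g) i = t f (t g i) := by
  apply D_inj
  rw [← t_spec, ← t_spec, ← t_spec, Finset.image_image]
  congr 1
  funext s
  simp only [Function.comp_apply, Finset.image_image]
  rfl

theorem t_one (i : Fin 4) : t 1 i = i := by
  apply D_inj
  rw [← t_spec]
  have : (Finset.image ⇑(1 : MulAut Q8)) = id := by
    funext s
    simp
  rw [this, Finset.image_id]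

/-- The permutation representation on the four diagonals. -/
noncomputable def τ : MulAut Q8 →* Equiv.Perm (Fin 4) where
  toFun f :=
    { toFun := t f
      invFun := t f⁻¹
      left_inv := fun i => by rw [← t_mul, inv_mul_cancel, t_one]
      right_inv := fun i => by rw [← t_mul, mul_inv_cancel, t_one] }
  map_one' := by
    ext i
    simp [t_one]
  map_mul' f g := by
    ext i
    simp [t_mul]

theorem τ_apply (f : MulAut Q8) (i : Fin 4) : τ f i = t f i := rfl

theorem τ_injective : Function.Injective τ := by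
  rw [injective_iff_map_eq_one]
  intro f hf
  have h1 : ∀ i, t f i = i := by
    intro i
    have := congrArg (fun σ : Equiv.Perm (Fin 4) => σ i) hf
    simpa [τ_apply] using this
  have h2 := faithful_pair (f (a 1), f (xa 0)) (aut_cond f) (by
    intro i
    simp only [fQ_eq]
    rw [t_spec, h1])
  have h3 : f (a 1) = a 1 := congrArg Prod.fst h2
  have h4 : f (xa 0) = xa 0 := congrArg Prod.snd h2
  ext x
  rw [aut_apply, h3, h4, form_eq x _ _ rfl rfl]
  rfl

end Cfsg.Agent.Lib.Q8AutPerm
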