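import Mathlib
import Cfsg.Agent.Lib.FrobCompl
import Cfsg.Agent.Lib.ExtraThreeAct
import Cfsg.Agent.Lib.Q8AutPerm
import Cfsg.Agent.Lib.PCore

/-!
# Solvable linear groups transitive on non-zero vectors with `p`-group stabilizers

`H` solvable, acting faithfully on a finite abelian `p`-group `V`, transitively on `V ∖ {1}`, with
point stabilizers `p`-groups: then the derived subgroup of `H` has order prime to `p`.
-/

set_option autoImplicit false
set_option linter.style.haveILetI false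
set_option linter.unusedSectionVars false
set_option linter.unusedSimpArgs false
set_option linter.unusedVariables false

namespace Cfsg.Agent.Lib.GagolaSolv

open Subgroup Cfsg Cfsg.Agent.Lib.PCore Cfsg.Agent.Lib.FpfNorm
open Cfsg.Agent.Lib.Q8Aut Cfsg.Agent.Lib.Q8AutPerm
open scoped commutatorElement

abbrev S4 := Equiv.Perm (Fin 4)

theorem s4_exp : ∀ g : S4, g ^ 12 = 1 := by decide +kernel

theorem s4_a4_two : ∀ g : S4, Equiv.Perm.sign g = 1 → g ^ 4 = 1 → g ^ 2 = 1 := by decide +kernel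

theorem s4_v4_mul : ∀ a b : S4, (Equiv.Perm.sign a = 1 ∧ a ^ 2 = 1) →
    (Equiv.Perm.sign b = 1 ∧ b ^ 2 = 1) →
    (Equiv.Perm.sign (a * b) = 1 ∧ (a * b) ^ 2 = 1) := by decide +kernel

theorem s4_a4_comm : ∀ a b : S4, Equiv.Perm.sign a = 1 → Equiv.Perm.sign b = 1 →
    (a * b * a⁻¹ * b⁻¹) ^ 2 = 1 := by decide +kernel

set_option synthInstance.maxHeartbeats 0 in
set_option synthInstance.maxSize 2048 in
theorem s4_key : ∀ g c : S4, Equiv.Perm.sign g = 1 → g ^ 2 = 1 → c ≠ 1 → c ^ 3 = 1 →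
    (c * (g * c * g⁻¹)⁻¹) ^ 3 = 1 → g = 1 := by decide +kernel

/-- The Klein four-group in `S₄`. -/
def V4 : Subgroup S4 where
  carrier := {g | Equiv.Perm.sign g = 1 ∧ g ^ 2 = 1}
  mul_mem' := fun {a b} ha hb => s4_v4_mul a b ha hb
  one_mem' := by simp
  inv_mem' := by
    intro a ha
    refine ⟨by simpa using ha.1, by rw [inv_pow, ha.2, inv_one]⟩

theorem arith8 (c : ℕ) : 3 ^ c % 8 = 1 ∨ 3 ^ c % 8 = 3 := by
  induction c with
  | zero => left; rfl
  | succ n ih =>
    rw [pow_succ, Nat.mul_mod]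
    rcases ih with h | h <;> rw [h] <;> simp

variable {H : Type*} [Group H] [Finite H] {V : Type*} [CommGroup V] [Finite V]

/-- The hypothesis. -/
structure Hyp (p : ℕ) (φ : H →* MulAut V) : Prop where
  inj : Function.Injective φ
  ne : ∃ v : V, v ≠ 1
  pg : IsPGroup p V
  tr : ∀ v w : V, v ≠ 1 → w ≠ 1 → ∃ h, φ h v = w
  st : ∀ v : V, v ≠ 1 → ∀ h, φ h v = v → ∃ k, h ^ p ^ k = 1

variable {p : ℕ} [hp : Fact p.Prime] {φ : H →* MulAut V}

theorem Hyp.eq_one (h : Hyp p φ) {a : H} {n : ℕ} (han : a ^ n = 1) (hn : n.Coprime p) {v : V}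
    (hv : v ≠ 1) (hav : φ a v = v) : a = 1 := by
  obtain ⟨k, hk⟩ := h.st v hv a hav
  have h1 : a ^ (Nat.gcd n (p ^ k)) = 1 := pow_gcd_eq_one.mpr ⟨han, hk⟩
  have h2 : Nat.gcd n (p ^ k) = 1 := Nat.Coprime.pow_right k hn
  rwa [h2, pow_one] at h1

/-- A `p`-subgroup fixes a nontrivial element. -/
theorem Hyp.exists_fixed (h : Hyp p φ) (R : Subgroup H) (hR : IsPGroup p R) :
    ∃ v : V, v ≠ 1 ∧ ∀ r ∈ R, φ r v = v := by
  classical
  letI : MulAction R V := MulAction.compHom V (φ.comp R.subtype)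
  have hsmul : ∀ (r : R) (v : V), r • v = φ r v := fun r v => rfl
  have hdvd : p ∣ Nat.card V := by
    obtain ⟨v, hv⟩ := h.ne
    haveI : Nontrivial V := ⟨⟨v, 1, hv⟩⟩
    exact (h.pg.nontrivial_iff_card.mp inferInstance).choose_spec.2 ▸ by
      exact dvd_pow_self p (h.pg.nontrivial_iff_card.mp inferInstance).choose_spec.1.ne'
  have h1 : (1 : V) ∈ MulAction.fixedPoints R V := by
    intro r
    rw [hsmul]
    exact map_one _
  obtain ⟨b, hb, hne⟩ := hR.exists_fixed_point_of_prime_dvd_card_of_fixed_point V hdvd h1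
  refine ⟨b, fun e => hne e.symm, fun r hr => ?_⟩
  exact hb ⟨r, hr⟩

/-- The `p`-core is trivial. -/
theorem Hyp.pCore_eq_bot (h : Hyp p φ) : pCore p H = ⊥ := by
  obtain ⟨v, hv, hfix⟩ := h.exists_fixed (pCore p H) (isPGroup_pCore p)
  rw [eq_bot_iff]
  intro r hr
  rw [Subgroup.mem_bot]
  apply h.inj
  rw [map_one]
  ext w
  by_cases hw : w = 1
  · subst hw; simp
  obtain ⟨g, hg⟩ := h.tr v w hv hw
  rw [MulAut.one_apply, ← hg]
  have h2 : g⁻¹ * r * g ∈ pCore p H := by
    have := (inferInstance : (pCore p H).Normal).conj_mem r hr g⁻¹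
    simpa using this
  have h3 := hfix _ h2
  rw [map_mul, map_mul, map_inv] at h3
  have h4 : (φ g)⁻¹ ((φ r) ((φ g) v)) = v := h3
  have h5 := congrArg (φ g) h4
  simpa using h5

/-- Uniqueness of involutions for odd `p`. -/
theorem Hyp.invol_unique (h : Hyp p φ) (hp2 : p ≠ 2) {a b : H} (ha : orderOf a = 2)
    (hb : orderOf b = 2) : a = b := by
  have key : ∀ c : H, orderOf c = 2 → ∀ v : V, φ c v = v⁻¹ := by
    intro c hc v
    have hc2 : c ^ 2 = 1 := by rw [← hc]; exact pow_orderOf_eq_one c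
    have hc1 : c ≠ 1 := by
      rintro rfl
      rw [orderOf_one] at hc
      omega
    have hcop : Nat.Coprime 2 p := by
      rw [Nat.coprime_primes Nat.prime_two hp.out]
      exact fun e => hp2 e.symm
    by_contra hne
    have h1 : v * φ c v ≠ 1 := by
      intro e
      exact hne (eq_inv_of_mul_eq_one_right e)
    apply hc1
    refine h.eq_one hc2 hcop h1 ?_
    rw [map_mul]
    have h3 : φ c (φ c v) = v := by
      have : φ (c ^ 2) v = v := by rw [hc2, map_one]; rfl
      rwa [pow_two, map_mul] at this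
    rw [h3, mul_comm]
  apply h.inj
  ext v
  rw [key a ha, key b hb]


theorem s4_pow3 (g : S4) (k : ℕ) (h : g ^ 3 ^ k = 1) : g ^ 3 = 1 := by
  have h1 : orderOf g ∣ 3 ^ k := orderOf_dvd_of_pow_eq_one h
  have h2 : orderOf g ∣ 3 * 4 := orderOf_dvd_of_pow_eq_one (s4_exp g)
  have h3 : (orderOf g).Coprime 4 :=
    Nat.Coprime.coprime_dvd_left h1 (Nat.Coprime.pow_left k (by norm_num))
  exact orderOf_dvd_iff_pow_eq_one.mp (h3.dvd_of_dvd_mul_right h2)

theorem s4_pow2 (g : S4) (k : ℕ) (h : g ^ 2 ^ k = 1) : g ^ 4 = 1 := by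
  have h1 : orderOf g ∣ 2 ^ k := orderOf_dvd_of_pow_eq_one h
  have h2 : orderOf g ∣ 4 * 3 := orderOf_dvd_of_pow_eq_one (s4_exp g)
  have h3 : (orderOf g).Coprime 3 :=
    Nat.Coprime.coprime_dvd_left h1 (Nat.Coprime.pow_left k (by norm_num))
  exact orderOf_dvd_iff_pow_eq_one.mp (h3.dvd_of_dvd_mul_right h2)

/-- The stabilizer of a point. -/
def stabS (φ : H →* MulAut V) (v : V) : Subgroup H where
  carrier := {g | φ g v = v}
  mul_mem' := by
    intro a b ha hb
    show φ (a * b) v = v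
    rw [map_mul, MulAut.mul_apply]
    have hb' : φ b v = v := hb
    rw [hb']
    exact ha
  one_mem' := by
    show φ 1 v = v
    rw [map_one]; rfl
  inv_mem' := by
    intro a ha
    show φ a⁻¹ v = v
    have ha' : φ a v = v := ha
    rw [map_inv]
    conv_lhs => rw [← ha']
    exact MulAut.inv_apply_self _ _ _

theorem mem_stabS {v : V} {g : H} : g ∈ stabS φ v ↔ φ g v = v := Iff.rfl

theorem Hyp.isPGroup_stabS (h : Hyp p φ) {v : V} (hv : v ≠ 1) : IsPGroup p (stabS φ v) := by
  rintro ⟨g, hg⟩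
  obtain ⟨k, hk⟩ := h.st v hv g hg
  exact ⟨k, Subtype.ext hk⟩

/-- The arithmetic contradiction. -/
theorem Hyp.card_normalizer (h : Hyp p φ) (P : Sylow p H) :
    ∃ b c : ℕ, Nat.card (normalizer ((P : Subgroup H) : Set H)) = p ^ b * (p ^ c - 1) := by
  classical
  set M := normalizer ((P : Subgroup H) : Set H) with hM
  obtain ⟨w₀, hw₀, hfix⟩ := h.exists_fixed P P.2
  let W : Subgroup V :=
    { carrier := {v | ∀ g ∈ (P : Subgroup H), φ g v = v}
      mul_mem' := by
        intro a b ha hb g hg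
        rw [map_mul, ha g hg, hb g hg]
      one_mem' := by
        intro g _
        exact map_one _
      inv_mem' := by
        intro a ha g hg
        rw [map_inv, ha g hg] }
  have hWmem : ∀ v, v ∈ W ↔ ∀ g ∈ (P : Subgroup H), φ g v = v := fun v => Iff.rfl
  have hSeq : ∀ v ∈ W, v ≠ 1 → stabS φ v = (P : Subgroup H) := by
    intro v hv hv1
    exact P.is_maximal' (h.isPGroup_stabS hv1) (fun g hg => hv g hg)
  have hN : ∀ (v : V) (hv : v ∈ W), v ≠ 1 → ∀ g, φ g w₀ = v → g ∈ M := by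
    intro v hv hv1 g hg
    rw [hM, Subgroup.mem_normalizer_iff]
    intro t
    have h1 := hSeq w₀ hfix hw₀
    have h2 := hSeq v hv hv1
    have h3 : t ∈ stabS φ w₀ ↔ g * t * g⁻¹ ∈ stabS φ v := by
      rw [mem_stabS, mem_stabS, ← hg, map_mul, map_mul, map_inv]
      simp only [MulAut.mul_apply, EmbeddingLike.apply_eq_iff_eq, MulAut.inv_apply_self]
    rw [h1, h2] at h3
    exact h3
  letI : MulAction M V := MulAction.compHom V (φ.comp M.subtype)
  have hsmul : ∀ (m : M) (v : V), m • v = φ m v := fun m v => rfl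
  have horb : MulAction.orbit M w₀ = (W : Set V) \ {1} := by
    ext v
    constructor
    · rintro ⟨m, rfl⟩
      constructor
      · intro g hg
        show φ g (m • w₀) = m • w₀
        rw [hsmul]
        have hm : ((m : H))⁻¹ ∈ M := M.inv_mem m.2
        have h4 : (m : H)⁻¹ * g * (m : H) ∈ (P : Subgroup H) := by
          have := (Subgroup.mem_normalizer_iff.mp hm g).mp hg
          simpa using this
        have h5 := hfix _ h4
        rw [map_mul, map_mul, map_inv] at h5
        have h6 : (φ (m : H))⁻¹ (φ g (φ (m : H) w₀)) = w₀ := h5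
        have h7 := congrArg (φ (m : H)) h6
        have h8 : φ g (φ (m : H) w₀) = φ (m : H) w₀ := by
          simpa using h7
        exact h8
      · intro e
        have h1 : φ (m : H) w₀ = 1 := e
        apply hw₀
        exact (map_eq_one_iff (φ (m : H)) (MulEquiv.injective _)).mp h1
    · rintro ⟨hvW, hv1⟩
      obtain ⟨g, hg⟩ := h.tr w₀ v hw₀ hv1
      exact ⟨⟨g, hN v hvW hv1 g hg⟩, hg⟩
  have hstab : MulAction.stabilizer M w₀ = (P : Subgroup H).subgroupOf M := by
    ext m
    rw [MulAction.mem_stabilizer_iff, Subgroup.mem_subgroupOf, ← hSeq w₀ hfix hw₀, mem_stabS]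
    rfl
  have hPM : (P : Subgroup H) ≤ M := Subgroup.le_normalizer
  have hcardP : Nat.card ((P : Subgroup H).subgroupOf M) = Nat.card P :=
    Nat.card_congr (Subgroup.subgroupOfEquivOfLe hPM).toEquiv
  have h1 := Subgroup.card_mul_index (MulAction.stabilizer M w₀)
  rw [MulAction.index_stabilizer, horb, hstab, hcardP] at h1
  have h2 : (((W : Set V) \ {1}) : Set V).ncard = Nat.card W - 1 := by
    rw [Set.ncard_sdiff_singleton_of_mem (one_mem W), ← Nat.card_coe_set_eq]
    rfl
  rw [h2] at h1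
  obtain ⟨b, hb⟩ := IsPGroup.iff_card.mp P.2
  obtain ⟨c, hc⟩ := IsPGroup.iff_card.mp (h.pg.to_subgroup W)
  refine ⟨b, c, ?_⟩
  rw [← h1, hb, hc]

theorem Hyp.absurd_of_rho (h : Hyp p φ) (hp2 : p ≠ 2) (ρ : H →* S4) {x : H}
    (hxc : x ∈ commutator H) {k : ℕ} (hxk : x ^ p ^ k = 1) (hρx : ρ x ≠ 1) {z : H}
    (hz : orderOf z = 2) (hρz : ρ z = 1)
    (hK : ∀ w : H, ρ w = 1 → (∃ j : ℕ, w ^ 2 ^ j = 1) → w = 1 ∨ w = z) : False := by
  classical
  have hcpk : (ρ x) ^ p ^ k = 1 := by rw [← map_pow, hxk, map_one]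
  have hp3 : p = 3 := by
    by_contra hne
    have hnd : ¬ p ∣ 12 := by
      intro hd
      have h12 : (12 : ℕ) = 2 ^ 2 * 3 := by norm_num
      rw [h12] at hd
      rcases (Nat.Prime.dvd_mul hp.out).mp hd with h1 | h1
      · exact hp2 ((Nat.prime_dvd_prime_iff_eq hp.out Nat.prime_two).mp (hp.out.dvd_of_dvd_pow h1))
      · exact hne ((Nat.prime_dvd_prime_iff_eq hp.out Nat.prime_three).mp h1)
    have hcop : (p ^ k).Coprime 12 := Nat.Coprime.pow_left k ((Nat.Prime.coprime_iff_not_dvd hp.out).mpr hnd)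
    have h1 : (ρ x) ^ Nat.gcd (p ^ k) 12 = 1 := pow_gcd_eq_one.mpr ⟨hcpk, s4_exp _⟩
    rw [hcop, pow_one] at h1
    exact hρx h1
  subst hp3
  have hc3 : (ρ x) ^ 3 = 1 := s4_pow3 _ k hcpk
  let σ : H →* ℤˣ := Equiv.Perm.sign.comp ρ
  have hσ : ∀ g, σ g = Equiv.Perm.sign (ρ g) := fun g => rfl
  have hσ1 : ∀ g, σ g = 1 ∨ σ g = -1 := fun g => Int.units_eq_one_or _
  -- the sign is nontrivial
  have hy₀ : ∃ y₀, σ y₀ ≠ 1 := by
    by_contra hall
    push Not at hall
    have hle : commutator H ≤ V4.comap ρ := by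
      rw [commutator_def, Subgroup.commutator_le]
      intro a _ b _
      rw [Subgroup.mem_comap, commutatorElement_def]
      have ha : Equiv.Perm.sign (ρ a) = 1 := hall a
      have hb : Equiv.Perm.sign (ρ b) = 1 := hall b
      refine ⟨?_, ?_⟩
      · simp only [map_mul, map_inv, ha, hb]
        simp
      · simp only [map_mul, map_inv]
        exact s4_a4_comm _ _ ha hb
    have h2 : (ρ x) ^ 2 = 1 := (hle hxc).2
    apply hρx
    have : ρ x = (ρ x) ^ 3 * ((ρ x) ^ 2)⁻¹ := by group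
    rw [this, hc3, h2]
    simp
  obtain ⟨y₀, hy₀⟩ := hy₀
  have hzpow : IsPGroup 3 (zpowers x) := by
    rw [IsPGroup.iff_card, Nat.card_zpowers]
    obtain ⟨j, -, hj⟩ := (Nat.dvd_prime_pow Nat.prime_three).mp (orderOf_dvd_of_pow_eq_one hxk)
    exact ⟨j, hj⟩
  obtain ⟨P, hxP⟩ := hzpow.exists_le_sylow
  have hxP' : x ∈ (P : Subgroup H) := hxP (mem_zpowers x)
  have hPelt : ∀ g ∈ (P : Subgroup H), ∃ j : ℕ, g ^ 3 ^ j = 1 := by
    intro g hg
    obtain ⟨j, hj⟩ := P.2 ⟨g, hg⟩
    exact ⟨j, congrArg Subtype.val hj⟩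
  have hPH₂ : (P : Subgroup H) ≤ σ.ker := by
    intro g hg
    obtain ⟨j, hj⟩ := hPelt g hg
    rw [MonoidHom.mem_ker]
    rcases hσ1 g with h1 | h1
    · exact h1
    · exfalso
      have h2 : (σ g) ^ 3 ^ j = 1 := by rw [← map_pow, hj, map_one]
      rw [h1, Odd.neg_one_pow (Odd.pow (by decide))] at h2
      exact absurd h2 (by decide)
  haveI : σ.ker.Normal := MonoidHom.normal_ker σ
  have hF := P.normalizer_sup_eq_top' hPH₂
  set M := normalizer ((P : Subgroup H) : Set H) with hM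
  have hy : ∃ y ∈ M, σ y ≠ 1 := by
    by_contra hall
    push Not at hall
    have hle : M ≤ σ.ker := fun g hg => hall g hg
    have hF' : M ⊔ σ.ker = ⊤ := hF
    rw [sup_eq_right.mpr hle] at hF'
    apply hy₀
    have : y₀ ∈ σ.ker := by rw [hF']; trivial
    exact this
  obtain ⟨y, hyM, hyσ⟩ := hy
  have hz1 : z ≠ 1 := by
    rintro rfl
    rw [orderOf_one] at hz
    omega
  have hz2 : z ^ 2 = 1 := by rw [← hz]; exact pow_orderOf_eq_one z
  have hM1 : ∀ w ∈ M, (∃ j : ℕ, w ^ 2 ^ j = 1) → σ w = 1 → w = 1 ∨ w = z := by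
    intro w hw hj hσw
    obtain ⟨j, hj⟩ := hj
    refine hK w ?_ ⟨j, hj⟩
    have hg4 : (ρ w) ^ 4 = 1 := s4_pow2 _ j (by rw [← map_pow, hj, map_one])
    have hg2 := s4_a4_two _ hσw hg4
    refine s4_key (ρ w) (ρ x) hσw hg2 hρx hc3 ?_
    have hu : x * (w * x * w⁻¹)⁻¹ ∈ (P : Subgroup H) :=
      mul_mem hxP' (inv_mem ((Subgroup.mem_normalizer_iff.mp hw x).mp hxP'))
    obtain ⟨i, hi⟩ := hPelt _ hu
    have := s4_pow3 (ρ (x * (w * x * w⁻¹)⁻¹)) i (by rw [← map_pow, hi, map_one])
    simpa only [map_mul, map_inv] using this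
  have h4 : 4 ∣ Nat.card M := by
    obtain ⟨a, m, hm, hn⟩ := Nat.exists_eq_two_pow_mul_odd (n := orderOf y) (orderOf_pos y).ne'
    set y₂ := y ^ m with hy₂
    have hy₂a : y₂ ^ 2 ^ a = 1 := by
      rw [hy₂, ← pow_mul, mul_comm, ← hn]
      exact pow_orderOf_eq_one y
    have hσy : σ y = -1 := (hσ1 y).resolve_left hyσ
    have hσy₂ : σ y₂ = -1 := by
      rw [hy₂, map_pow, hσy, hm.neg_one_pow]
    have hy₂M : y₂ ∈ M := pow_mem hyM m
    have h5 := hM1 (y₂ ^ 2) (pow_mem hy₂M 2) ⟨a, by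
      rw [← pow_mul, mul_comm, pow_mul, hy₂a, one_pow]⟩ (by
        rw [map_pow, hσy₂]; decide)
    have hy₂1 : y₂ ≠ 1 := by
      intro e
      rw [e, map_one] at hσy₂
      exact absurd hσy₂ (by decide)
    rcases h5 with h5 | h5
    · exfalso
      have ho : orderOf y₂ = 2 := orderOf_eq_prime h5 hy₂1
      have he := h.invol_unique (by decide) ho hz
      have : σ y₂ = 1 := by
        rw [he, hσ, hρz, map_one]
      rw [hσy₂] at this
      exact absurd this (by decide)
    · have ho : orderOf y₂ = 2 ^ (1 + 1) := by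
        apply orderOf_eq_prime_pow
        · rw [pow_one, h5]; exact hz1
        · show y₂ ^ 2 ^ 2 = 1
          have : y₂ ^ 2 ^ 2 = (y₂ ^ 2) ^ 2 := (pow_mul y₂ 2 2)
          rw [this, h5, hz2]
      have h6 := Subgroup.orderOf_dvd_natCard M hy₂M
      rw [ho] at h6
      exact h6
  have h8 : ¬ 8 ∣ Nat.card M := by
    intro hd
    have hd' : 2 ^ 3 ∣ Nat.card M := hd
    obtain ⟨K, hK8⟩ := Sylow.exists_subgroup_card_pow_prime 2 hd'
    let f : K →* ℤˣ := σ.comp (M.subtype.comp K.subtype)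
    have hfelt : ∀ t : f.ker, ((t : K) : M).1 = 1 ∨ ((t : K) : M).1 = z := by
      intro t
      apply hM1 _ ((t : K) : M).2
      · refine ⟨3, ?_⟩
        have h1 : (t : K) ^ 2 ^ 3 = 1 := by
          rw [show (2 : ℕ) ^ 3 = Nat.card K by rw [hK8]]
          exact pow_card_eq_one'
        have h2 := congrArg (fun s : K => ((s : M) : H)) h1
        simpa using h2
      · exact t.2
    have hinj : Function.Injective (fun t : f.ker => decide (((t : K) : M).1 = 1)) := by
      intro s t hst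
      apply Subtype.ext
      apply Subtype.ext
      apply Subtype.ext
      rcases hfelt s with h1 | h1 <;> rcases hfelt t with h2 | h2
      · rw [h1, h2]
      · exfalso
        simp only [decide_eq_decide] at hst
        have := hst.mp h1
        rw [h2] at this
        exact hz1 this
      · exfalso
        simp only [decide_eq_decide] at hst
        have := hst.mpr h2
        rw [h1] at this
        exact hz1 this
      · rw [h1, h2]
    have hkerle : Nat.card f.ker ≤ 2 := by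
      have := Nat.card_le_card_of_injective _ hinj
      simpa using this
    have hrange : Nat.card f.range ≤ 2 := by
      have h1 : Nat.card f.range ≤ Nat.card ℤˣ := Subgroup.card_le_card_group _
      have h2 : Nat.card ℤˣ = 2 := by
        rw [Nat.card_eq_fintype_card]; rfl
      omega
    have h3 := Subgroup.card_mul_index f.ker
    rw [Subgroup.index_ker, hK8] at h3
    have h4 : Nat.card f.ker * Nat.card f.range ≤ 2 * 2 := Nat.mul_le_mul hkerle hrange
    rw [h3] at h4
    norm_num at h4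
  obtain ⟨b, c, hbc⟩ := h.card_normalizer P
  rw [← hM] at hbc
  rw [hbc] at h4 h8
  have hc4 : 4 ∣ 3 ^ c - 1 :=
    Nat.Coprime.dvd_of_dvd_mul_left (Nat.Coprime.pow_right b (by norm_num)) h4
  have hc8 : ¬ 8 ∣ 3 ^ c - 1 := fun hh => h8 (Dvd.dvd.mul_left hh _)
  have hpos : 1 ≤ 3 ^ c := Nat.one_le_pow _ _ (by norm_num)
  rcases arith8 c with h1 | h1
  · apply hc8
    omega
  · omega


open QuaternionGroup in
theorem Hyp.not_q8 (h : Hyp p φ) (hp2 : p ≠ 2) (e : (pCore 2 H) ≃* Q8) {x : H}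
    (hxc : x ∈ commutator H) {k : ℕ} (hxk : x ^ p ^ k = 1)
    (hne : ∃ q ∈ pCore 2 H, x * q * x⁻¹ ≠ q) : False := by
  classical
  haveI : Fact (Nat.Prime 2) := ⟨Nat.prime_two⟩
  set Q := pCore 2 H with hQ
  let θ : H →* MulAut Q := MulAut.conjNormal
  have hθ : ∀ (g : H) (q : Q), ((θ g q : Q) : H) = g * q * g⁻¹ :=
    fun g q => MulAut.conjNormal_apply g q
  let ρ : H →* S4 := τ.comp ((MulAut.congr e).toMonoidHom.comp θ)
  have hρ1 : ∀ g, ρ g = 1 → ∀ q ∈ Q, g * q * g⁻¹ = q := by
    intro g hg q hq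
    have h2 : τ ((MulAut.congr e) (θ g)) = 1 := hg
    have h3 : (MulAut.congr e) (θ g) = 1 := τ_injective (h2.trans (map_one τ).symm)
    have h4 : θ g = 1 := (map_eq_one_iff _ (MulEquiv.injective _)).mp h3
    have h5 := hθ g ⟨q, hq⟩
    rw [h4] at h5
    exact h5.symm
  have hρ2 : ∀ g, (∀ q ∈ Q, g * q * g⁻¹ = q) → ρ g = 1 := by
    intro g hg
    have h4 : θ g = 1 := by
      ext q
      rw [hθ, hg q.1 q.2]
      rfl
    show τ ((MulAut.congr e) (θ g)) = 1
    rw [h4, map_one, map_one]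
  let z' : Q := e.symm (a 2)
  let z : H := z'
  have hz'o : orderOf z' = 2 := by
    show orderOf (e.symm (a 2)) = 2
    rw [MulEquiv.orderOf_eq, orderOf_a2]
  have hzo : orderOf z = 2 := by
    show orderOf (z' : H) = 2
    rw [Subgroup.orderOf_coe, hz'o]
  have hzcen : ∀ g : H, g * z * g⁻¹ = z := by
    intro g
    apply h.invol_unique hp2 _ hzo
    rw [← hzo]
    have h0 := MulEquiv.orderOf_eq (MulAut.conj g) z
    rwa [MulAut.conj_apply] at h0
  have hρz : ρ z = 1 := hρ2 z (by
    intro q _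
    have := hzcen q
    rw [mul_inv_eq_iff_eq_mul] at this
    rw [← this]
    simp)
  obtain ⟨q₀, hq₀, hq₀ne⟩ := hne
  have hρx : ρ x ≠ 1 := fun hh => hq₀ne (hρ1 x hh q₀ hq₀)
  refine h.absurd_of_rho hp2 ρ hxc hxk hρx hzo hρz ?_
  intro w hw ⟨j₀, hj₀⟩
  by_contra hcon
  push Not at hcon
  obtain ⟨hw1, hwz⟩ := hcon
  have hwQ := hρ1 w hw
  -- the order of `w`
  have hd : orderOf w ∣ 2 ^ j₀ := orderOf_dvd_of_pow_eq_one hj₀
  obtain ⟨t, -, ht⟩ := (Nat.dvd_prime_pow Nat.prime_two).mp hd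
  have ht2 : 2 ≤ t := by
    by_contra hlt
    interval_cases t
    · rw [pow_zero] at ht
      exact hw1 (orderOf_eq_one_iff.mp ht)
    · rw [pow_one] at ht
      exact hwz (h.invol_unique hp2 ht hzo)
  obtain ⟨s, rfl⟩ : ∃ s, t = s + 2 := ⟨t - 2, by omega⟩
  set i := w ^ 2 ^ s with hi
  have hio : orderOf i = 4 := by
    rw [hi, orderOf_pow' _ (by positivity), ht]
    have h1 : Nat.gcd (2 ^ (s + 2)) (2 ^ s) = 2 ^ s := Nat.gcd_eq_right (pow_dvd_pow 2 (by omega))
    rw [h1, pow_add]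
    simp
  have hi2o : orderOf (i ^ 2) = 2 := by
    rw [orderOf_pow' _ (by norm_num), hio]
    norm_num
  have hi2 : i ^ 2 = z := h.invol_unique hp2 hi2o hzo
  have hicomm : ∀ q ∈ Q, i * q * i⁻¹ = q := by
    intro q hq
    have key : ∀ n : ℕ, w ^ n * q * (w ^ n)⁻¹ = q := by
      intro n
      induction n with
      | zero => simp
      | succ n ih =>
        have h1 := hwQ q hq
        calc w ^ (n + 1) * q * (w ^ (n + 1))⁻¹ = w ^ n * (w * q * w⁻¹) * (w ^ n)⁻¹ := by group
          _ = q := by rw [h1, ih]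
    exact key _
  let j' : Q := e.symm (a 1)
  let j : H := j'
  have hjQ : j ∈ Q := j'.2
  have hj2 : j ^ 2 = z := by
    show ((j' : H)) ^ 2 = (z' : H)
    have h1 : j' ^ 2 = z' := by
      show (e.symm (a 1)) ^ 2 = e.symm (a 2)
      rw [← map_pow]
      congr 1
    rw [← Subgroup.coe_pow, h1]
  have hij : i * j = j * i := by
    have := hicomm j hjQ
    rw [mul_inv_eq_iff_eq_mul] at this
    exact this
  have hsq : (i * j) ^ 2 = 1 := by
    have h1 : (i * j) ^ 2 = i ^ 2 * j ^ 2 := (Commute.mul_pow hij 2)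
    rw [h1, hi2, hj2, ← pow_two, ← hzo]
    exact pow_orderOf_eq_one z
  have hzQ : z ∈ Q := z'.2
  have hiQ : i ∈ Q := by
    by_cases hij1 : i * j = 1
    · have : i = j⁻¹ := eq_inv_of_mul_eq_one_left hij1
      rw [this]
      exact Q.inv_mem hjQ
    · have ho : orderOf (i * j) = 2 := orderOf_eq_prime hsq hij1
      have h1 := h.invol_unique hp2 ho hzo
      have : i = z * j⁻¹ := by rw [← h1]; group
      rw [this]
      exact Q.mul_mem hzQ (Q.inv_mem hjQ)
  have hcen : ∀ y : Q8, e ⟨i, hiQ⟩ * y = y * e ⟨i, hiQ⟩ := by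
    intro y
    have h1 := hicomm ((e.symm y : Q) : H) (e.symm y).2
    rw [mul_inv_eq_iff_eq_mul] at h1
    have h2 : (⟨i, hiQ⟩ : Q) * e.symm y = e.symm y * ⟨i, hiQ⟩ := Subtype.ext h1
    have h3 := congrArg e h2
    rwa [map_mul, map_mul, e.apply_symm_apply] at h3
  have hi4 : i ^ 2 = 1 := by
    rcases (center_eq _).mp hcen with h1 | h1
    · have h2 : (⟨i, hiQ⟩ : Q) = 1 := by
        apply e.injective
        rw [h1, map_one]
      have h3 : i = 1 := congrArg Subtype.val h2
      rw [h3, one_pow]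
    · have h2 : (⟨i, hiQ⟩ : Q) = z' := by
        apply e.injective
        rw [h1]
        show a 2 = e (e.symm (a 2))
        rw [e.apply_symm_apply]
      have h3 : i = z := congrArg Subtype.val h2
      rw [h3, ← hzo]
      exact pow_orderOf_eq_one z
  rw [hi2] at hi4
  rw [hi4, orderOf_one] at hzo
  omega

/-- Every `p`-element of the derived subgroup is trivial. -/
theorem Hyp.eq_one_of_pelt [Group.IsSolvable H] (h : Hyp p φ) {x : H} (hxc : x ∈ commutator H)
    {k : ℕ} (hxk : x ^ p ^ k = 1) : x = 1 := by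
  classical
  obtain ⟨v₀, hv₀⟩ := h.ne
  haveI : Nontrivial V := ⟨⟨v₀, 1, hv₀⟩⟩
  have hcore : ∀ q : Nat.Primes, pCore (q : ℕ) H ≤ centralizer ({x} : Set H) := by
    intro q
    haveI : Fact (q : ℕ).Prime := ⟨q.2⟩
    set Q := pCore (q : ℕ) H with hQ
    have hQq : IsPGroup (q : ℕ) Q := isPGroup_pCore (q : ℕ)
    by_cases hqp : (q : ℕ) = p
    · have hb : Q = ⊥ := by
        rw [hQ, hqp]
        exact h.pCore_eq_bot
      rw [hb]
      exact bot_le
    let θ : H →* MulAut Q := MulAut.conjNormal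
    have hθ : ∀ (g : H) (q : Q), ((θ g q : Q) : H) = g * q * g⁻¹ :=
      fun g q => MulAut.conjNormal_apply g q
    suffices hs : θ x = 1 by
      intro y hy
      rw [Subgroup.mem_centralizer_singleton_iff]
      have h5 := hθ x ⟨y, hy⟩
      rw [hs] at h5
      have h6 : y = x * y * x⁻¹ := h5
      rw [eq_mul_inv_iff_mul_eq] at h6
      exact h6
    by_cases hq2 : (q : ℕ) = 2
    · -- the prime two
      by_contra hne
      have hp2 : p ≠ 2 := fun e => hqp (hq2.trans e.symm)
      have hQ' : Q = pCore 2 H := by rw [hQ, hq2]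
      have hQ2 : IsPGroup 2 Q := by rw [← hq2]; exact hQq
      have huQ : ∀ a b : Q, orderOf a = 2 → orderOf b = 2 → a = b := by
        intro a b ha hb
        apply Subtype.ext
        apply h.invol_unique hp2
        · rwa [Subgroup.orderOf_coe]
        · rwa [Subgroup.orderOf_coe]
      have hf : (θ x) ^ p ^ k = 1 := by rw [← map_pow, hxk, map_one]
      obtain ⟨e⟩ := Cfsg.Agent.Lib.ExtraThreeAct.quat_of_aut hQ2 huQ (θ x) hp2 hf hne
      have hex : ∃ y ∈ pCore 2 H, x * y * x⁻¹ ≠ y := by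
        by_contra hall
        push Not at hall
        apply hne
        ext y
        rw [hθ]
        exact hall y (by rw [← hQ']; exact y.2)
      revert e hex
      rw [hQ']
      intro e hex
      exact h.not_q8 hp2 e hxc hxk hex
    · -- odd primes
      have hfpf : IsFpf (φ.comp Q.subtype) := by
        intro a ha v hv
        by_contra hv1
        obtain ⟨n, hn⟩ := hQq a
        have hn' : (a : H) ^ (q : ℕ) ^ n = 1 := congrArg Subtype.val hn
        have hcop : ((q : ℕ) ^ n).Coprime p :=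
          Nat.Coprime.pow_left n ((Nat.coprime_primes q.2 hp.out).mpr hqp)
        have := h.eq_one hn' hcop hv1 hv
        exact ha (Subtype.ext this)
      rcases Cfsg.Agent.Lib.FrobCompl.cyclic_or_quaternion_of_fpf hQq hfpf with hc | ⟨h2, -⟩
      · -- cyclic
        let cg : CommGroup (MulAut Q) :=
          (IsCyclic.mulAutMulEquiv Q).toMonoidHom.commGroupOfInjective
            (IsCyclic.mulAutMulEquiv Q).injective
        have hle : commutator H ≤ θ.ker := by
          rw [commutator_def, Subgroup.commutator_le]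
          intro a _ b _
          rw [MonoidHom.mem_ker, map_commutatorElement, commutatorElement_eq_one_iff_mul_comm]
          exact mul_comm (θ a) (θ b)
        exact hle hxc
      · exact absurd h2 hq2
  have hcF : x ∈ centralizer (fittingSubgroup H : Set H) := by
    rw [Subgroup.mem_centralizer_iff]
    intro y hy
    have h1 : fittingSubgroup H ≤ centralizer ({x} : Set H) := by
      rw [fittingSubgroup_eq_iSup_pCore]
      exact iSup_le hcore
    have h2 := h1 hy
    rw [Subgroup.mem_centralizer_singleton_iff] at h2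
    exact h2
  have hxF := centralizer_fittingSubgroup_le hcF
  have h2 := fittingSubgroup_le_sup p hxF
  rw [h.pCore_eq_bot, bot_sup_eq] at h2
  have hd : orderOf x ∣ Nat.card (pPrimeCore p H) := Subgroup.orderOf_dvd_natCard _ h2
  have hcop : (Nat.card (pPrimeCore p H)).Coprime (p ^ k) :=
    Nat.Coprime.pow_right k (card_pPrimeCore_coprime p)
  have hd2 : orderOf x ∣ p ^ k := orderOf_dvd_of_pow_eq_one hxk
  have h3 : orderOf x ∣ 1 := by
    have := Nat.dvd_gcd hd hd2
    rwa [hcop] at this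
  exact orderOf_eq_one_iff.mp (Nat.dvd_one.mp h3)

/-- The derived subgroup has order prime to `p`. -/
theorem Hyp.not_dvd [Group.IsSolvable H] (h : Hyp p φ) : ¬ p ∣ Nat.card (commutator H) := by
  intro hd
  obtain ⟨x, hx⟩ := exists_prime_orderOf_dvd_card' (G := commutator H) p hd
  have hx1 : x ≠ 1 := by
    rintro rfl
    rw [orderOf_one] at hx
    exact hp.out.one_lt.ne hx
  have hxp : (x : H) ^ p ^ 1 = 1 := by
    rw [pow_one, ← hx, ← Subgroup.orderOf_coe]
    exact pow_orderOf_eq_one _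
  exact hx1 (Subtype.ext (h.eq_one_of_pelt x.2 hxp))

/-- A group whose derived subgroup has order prime to `p` has a normal `p`-complement and abelian
Sylow `p`-subgroups. -/
theorem complement_of_not_dvd {X : Type*} [Group X] [Finite X] (hd : ¬ p ∣ Nat.card (commutator X)) :
    HasNormalPComplement p X ∧ ∀ Q : Sylow p X, IsMulCommutative (Q : Subgroup X) := by
  classical
  have hinf : ∀ Q : Sylow p X, ∀ c ∈ commutator X, c ∈ (Q : Subgroup X) → c = 1 := by
    intro Q c hc hcQ
    obtain ⟨n, hn⟩ := Q.2 ⟨c, hcQ⟩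
    have hn' : c ^ p ^ n = 1 := congrArg Subtype.val hn
    have hd1 : orderOf c ∣ Nat.card (commutator X) := Subgroup.orderOf_dvd_natCard _ hc
    have hd2 : orderOf c ∣ p ^ n := orderOf_dvd_of_pow_eq_one hn'
    have hcop : (Nat.card (commutator X)).Coprime (p ^ n) :=
      Nat.Coprime.pow_right n ((Nat.Prime.coprime_iff_not_dvd hp.out).mpr hd).symm
    have h3 : orderOf c ∣ 1 := by
      have := Nat.dvd_gcd hd1 hd2
      rwa [hcop] at this
    exact orderOf_eq_one_iff.mp (Nat.dvd_one.mp h3)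
  have hcomm : ∀ c ∈ commutator X, True := fun _ _ => trivial
  have hmemc : ∀ a b : X, ⁅a, b⁆ ∈ commutator X := by
    intro a b
    rw [_root_.commutator_def]
    exact Subgroup.commutator_mem_commutator trivial trivial
  constructor
  · obtain ⟨P⟩ : Nonempty (Sylow p X) := inferInstance
    have hN : normalizer ((P : Subgroup X) : Set X) ≤ centralizer ((P : Subgroup X) : Set X) := by
      intro n hn
      rw [Subgroup.mem_centralizer_iff]
      intro g hg
      have h1 : ⁅n, g⁆ ∈ (P : Subgroup X) := by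
        rw [commutatorElement_def]
        exact mul_mem ((Subgroup.mem_normalizer_iff.mp hn g).mp hg) (inv_mem hg)
      have h2 := hinf P _ (hmemc n g) h1
      rw [commutatorElement_eq_one_iff_mul_comm] at h2
      exact h2.symm
    exact ⟨P, (MonoidHom.transferSylow P hN).ker, MonoidHom.normal_ker _,
      MonoidHom.ker_transferSylow_isComplement' P hN⟩
  · intro Q
    refine ⟨⟨?_⟩⟩
    rintro ⟨a, ha⟩ ⟨b, hb⟩
    apply Subtype.ext
    have h1 : ⁅a, b⁆ ∈ (Q : Subgroup X) := by
      rw [commutatorElement_def]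
      exact mul_mem (mul_mem (mul_mem ha hb) (inv_mem ha)) (inv_mem hb)
    have h2 := hinf Q _ (hmemc a b) h1
    rw [commutatorElement_eq_one_iff_mul_comm] at h2
    exact h2

end Cfsg.Agent.Lib.GagolaSolv
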