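import Mathlib
import Cfsg.Agent.Lib.GalAmgm

/-!
# Galois averaging for the simplex form

The form `P ∑ |w j|² - m |∑ ε j w j|²` with `P = 1 + e m`, evaluated at cyclotomic integers.
-/

set_option autoImplicit false

namespace Cfsg.Agent.Lib.GalSimplex

open Cfsg.Agent.Lib.GalAmgm
open scoped ComplexConjugate

/-- The arithmetic bound. -/
theorem arith_bound (e c m : ℕ) (hc1 : 1 ≤ c) (hce : c ≤ e) (hm : m ≠ 0 ∨ e ≤ 1) :
    (e : ℝ) ≤ ((1 + e * m : ℕ) - (m : ℝ) * c) * c := by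
  rcases hm with hm | he
  · have h1 : (1 : ℝ) ≤ m := by exact_mod_cast Nat.one_le_iff_ne_zero.mpr hm
    have h2 : (1 : ℝ) ≤ c := by exact_mod_cast hc1
    have h3 : (c : ℝ) ≤ e := by exact_mod_cast hce
    push_cast
    have h4 : 0 ≤ ((e : ℝ) - c) * ((m : ℝ) * c - 1) := by
      apply mul_nonneg
      · linarith
      · nlinarith
    nlinarith
  · have hc : c = 1 := by omega
    have he' : e = 1 := by omega
    subst hc he'
    push_cast
    simp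

/-- The pointwise bound for the simplex form. -/
theorem form_lower {J : Type*} [Fintype J] (a : J → ℂ) (ε : J → ℤ) (hε : ∀ j, ε j = 1 ∨ ε j = -1)
    (S : Finset J) (hS : ∀ j, j ∉ S → a j = 0) (m : ℝ) (hm : 0 ≤ m) :
    m * ‖∑ j, (ε j : ℂ) * a j‖ ^ 2 ≤ m * (S.card * ∑ j, ‖a j‖ ^ 2) := by
  apply mul_le_mul_of_nonneg_left _ hm
  have h1 : ‖∑ j, (ε j : ℂ) * a j‖ ≤ ∑ j ∈ S, ‖a j‖ := by
    have h2 : ∑ j, (ε j : ℂ) * a j = ∑ j ∈ S, (ε j : ℂ) * a j := by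
      symm
      apply Finset.sum_subset (Finset.subset_univ _)
      intro j _ hj
      rw [hS j hj, mul_zero]
    rw [h2]
    refine (norm_sum_le _ _).trans (le_of_eq ?_)
    refine Finset.sum_congr rfl fun j _ => ?_
    rw [norm_mul]
    rcases hε j with h | h <;> simp [h]
  have h2 : (∑ j ∈ S, ‖a j‖) ^ 2 ≤ S.card * ∑ j ∈ S, ‖a j‖ ^ 2 := sq_sum_le_card_mul_sum_sq
  have h3 : ∑ j ∈ S, ‖a j‖ ^ 2 ≤ ∑ j, ‖a j‖ ^ 2 :=
    Finset.sum_le_sum_of_subset_of_nonneg (Finset.subset_univ _) fun _ _ _ => by positivity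
  have h4 : 0 ≤ ‖∑ j, (ε j : ℂ) * a j‖ := norm_nonneg _
  have h5 : 0 ≤ (S.card : ℝ) := by positivity
  calc ‖∑ j, (ε j : ℂ) * a j‖ ^ 2 ≤ (∑ j ∈ S, ‖a j‖) ^ 2 := by gcongr
    _ ≤ _ := h2
    _ ≤ _ := by gcongr

/-- **Galois averaging for the simplex form.** -/
theorem card_mul_le_of_simplex (n : ℕ) [NeZero n] {ι J : Type*} [Fintype J] (s t : Finset ι)
    (hst : s ⊆ t) (w : ι → J → ℂ) (hm : ∀ i j, w i j ∈ cycF n)
    (hi : ∀ i j, IsIntegral ℤ (w i j)) (hne : ∀ i ∈ s, ∃ j, w i j ≠ 0) (ε : J → ℤ)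
    (hε : ∀ j, ε j = 1 ∨ ε j = -1) (m : ℕ) (hm' : m ≠ 0 ∨ Fintype.card J ≤ 1) (N : ℚ)
    (hN : ∑ i ∈ t, (((1 + Fintype.card J * m : ℕ) : ℂ) * ∑ j, w i j * conj (w i j) -
      (m : ℂ) * ((∑ j, (ε j : ℂ) * w i j) * conj (∑ j, (ε j : ℂ) * w i j))) = (N : ℂ)) :
    (s.card : ℝ) * Fintype.card J ≤ N := by
  classical
  set e := Fintype.card J with he
  set P := 1 + e * m with hP
  let W : ι → J → cycF n := fun i j => ⟨w i j, hm i j⟩
  have hW : ∀ i j, ((W i j : cycF n) : ℂ) = w i j := fun i j => rfl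
  set F : (cycF n →ₐ[ℚ] ℂ) → ι → ℝ := fun φ i =>
    (P : ℝ) * ∑ j, ‖φ (W i j)‖ ^ 2 - (m : ℝ) * ‖∑ j, (ε j : ℂ) * φ (W i j)‖ ^ 2 with hF
  have hsum : ∑ i ∈ t, ((P : cycF n) * ∑ j, W i j * conjF n (W i j) -
      (m : cycF n) * ((∑ j, (ε j : cycF n) * W i j) * conjF n (∑ j, (ε j : cycF n) * W i j))) =
      algebraMap ℚ (cycF n) N := by
    apply Subtype.ext
    rw [show ((algebraMap ℚ (cycF n) N : cycF n) : ℂ) = (N : ℂ) from by simp, ← hN]
    push_cast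
    refine Finset.sum_congr rfl fun i _ => ?_
    have h1 : ∀ j, ((conjF n (W i j) : cycF n) : ℂ) = conj (w i j) := fun j => coe_conjF n _
    have h2 : ((conjF n (∑ j, (ε j : cycF n) * W i j) : cycF n) : ℂ) =
        conj (∑ j, (ε j : ℂ) * w i j) := by
      rw [coe_conjF]
      push_cast
      rfl
    push_cast at h2
    simp only [h1, h2, hW]
  have hφ : ∀ φ : cycF n →ₐ[ℚ] ℂ, ∑ i ∈ t, F φ i = (N : ℝ) := by
    intro φ
    have h1 := congrArg φ hsum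
    rw [map_sum, AlgHom.commutes] at h1
    have h2 : ∀ i ∈ t, φ ((P : cycF n) * ∑ j, W i j * conjF n (W i j) -
        (m : cycF n) * ((∑ j, (ε j : cycF n) * W i j) *
          conjF n (∑ j, (ε j : cycF n) * W i j))) = ((F φ i : ℝ) : ℂ) := by
      intro i _
      have h5 : ∑ x, φ ((ε x : cycF n) * W i x) = ∑ j, (ε j : ℂ) * φ (W i j) :=
        Finset.sum_congr rfl fun j _ => by rw [map_mul, map_intCast]
      have h6 : ∑ x, φ (W i x * conjF n (W i x)) = ((∑ j, ‖φ (W i j)‖ ^ 2 : ℝ) : ℂ) := by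
        push_cast
        refine Finset.sum_congr rfl fun j _ => ?_
        rw [map_mul, emb_conjF, Complex.mul_conj, Complex.normSq_eq_norm_sq]
        push_cast
        rfl
      rw [map_sub, map_mul, map_mul, map_mul, map_natCast, map_natCast, emb_conjF, map_sum, map_sum,
        Complex.mul_conj, Complex.normSq_eq_norm_sq, h5, h6]
      simp only [hF]
      push_cast
      rfl
    rw [Finset.sum_congr rfl h2] at h1
    have h3 : ((∑ i ∈ t, F φ i : ℝ) : ℂ) = ((N : ℝ) : ℂ) := by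
      push_cast at h1 ⊢
      rw [h1]
      simp
    exact Complex.ofReal_injective h3
  set C : ℝ := (Fintype.card (cycF n →ₐ[ℚ] ℂ) : ℝ) with hC
  have hcard : (0 : ℝ) < C := by
    have : Nonempty (cycF n →ₐ[ℚ] ℂ) := ⟨(cycF n).val⟩
    rw [hC]
    exact_mod_cast Fintype.card_pos
  have hmR : (0 : ℝ) ≤ m := by positivity
  -- the support
  let S : ι → Finset J := fun i => Finset.univ.filter fun j => W i j ≠ 0
  have hS : ∀ (i : ι) (φ : cycF n →ₐ[ℚ] ℂ) (j : J), j ∉ S i → φ (W i j) = 0 := by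
    intro i φ j hj
    have : W i j = 0 := by
      by_contra h
      exact hj (Finset.mem_filter.mpr ⟨Finset.mem_univ _, h⟩)
    rw [this, map_zero]
  have hScard : ∀ i, (S i).card ≤ e := fun i => Finset.card_le_univ _
  have hlow : ∀ (φ : cycF n →ₐ[ℚ] ℂ) (i : ι), ((P : ℝ) - (m : ℝ) * (S i).card) * ∑ j, ‖φ (W i j)‖ ^ 2 ≤ F φ i := by
    intro φ i
    have h1 := form_lower (fun j => φ (W i j)) ε hε (S i) (hS i φ) (m : ℝ) hmR
    simp only [hF]
    nlinarith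
  have hpos : ∀ i, (0 : ℝ) ≤ (P : ℝ) - (m : ℝ) * (S i).card := by
    intro i
    have h1 : ((S i).card : ℝ) ≤ e := by exact_mod_cast hScard i
    have h2 : (P : ℝ) = 1 + e * m := by rw [hP]; push_cast; ring
    rw [h2]
    nlinarith
  have hnn : ∀ (φ : cycF n →ₐ[ℚ] ℂ) (i : ι), 0 ≤ F φ i := fun φ i =>
    (mul_nonneg (hpos i) (Finset.sum_nonneg fun _ _ => by positivity)).trans (hlow φ i)
  have h4 : ∀ i ∈ s, C * e ≤ ∑ φ : cycF n →ₐ[ℚ] ℂ, F φ i := by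
    intro i hi'
    obtain ⟨j₀, hj₀⟩ := hne i hi'
    have hW0 : W i j₀ ≠ 0 := fun h => hj₀ (by rw [← hW, h]; rfl)
    have hc1 : 1 ≤ (S i).card :=
      Finset.card_pos.mpr ⟨j₀, Finset.mem_filter.mpr ⟨Finset.mem_univ _, hW0⟩⟩
    have h5 := arith_bound e (S i).card m hc1 (hScard i) hm'
    have h6 : (C : ℝ) * (S i).card ≤ ∑ φ : cycF n →ₐ[ℚ] ℂ, ∑ j, ‖φ (W i j)‖ ^ 2 := by
      rw [Finset.sum_comm]
      have h7 : ∑ j ∈ S i, C ≤ ∑ j ∈ S i, ∑ φ : cycF n →ₐ[ℚ] ℂ, ‖φ (W i j)‖ ^ 2 := by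
        refine Finset.sum_le_sum fun j hj => ?_
        exact card_le_sum_norm_sq n (W i j) (hi i j) (Finset.mem_filter.mp hj).2
      rw [Finset.sum_const, nsmul_eq_mul, mul_comm] at h7
      refine h7.trans ?_
      exact Finset.sum_le_sum_of_subset_of_nonneg (Finset.subset_univ _) fun _ _ _ =>
        Finset.sum_nonneg fun _ _ => by positivity
    have h8 : ∑ φ : cycF n →ₐ[ℚ] ℂ, ((P : ℝ) - (m : ℝ) * (S i).card) *
        ∑ j, ‖φ (W i j)‖ ^ 2 ≤ ∑ φ : cycF n →ₐ[ℚ] ℂ, F φ i :=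
      Finset.sum_le_sum fun φ _ => hlow φ i
    rw [← Finset.mul_sum] at h8
    refine le_trans ?_ h8
    have h9 : ((P : ℝ) - (m : ℝ) * (S i).card) * ((C : ℝ) * (S i).card) ≤
        ((P : ℝ) - (m : ℝ) * (S i).card) * ∑ φ : cycF n →ₐ[ℚ] ℂ, ∑ j, ‖φ (W i j)‖ ^ 2 :=
      mul_le_mul_of_nonneg_left h6 (hpos i)
    refine le_trans ?_ h9
    have h10 : (e : ℝ) ≤ ((P : ℝ) - (m : ℝ) * (S i).card) * (S i).card := h5
    nlinarith
  have h5 : ∑ i ∈ s, C * e ≤ ∑ i ∈ t, ∑ φ : cycF n →ₐ[ℚ] ℂ, F φ i := by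
    refine (Finset.sum_le_sum h4).trans ?_
    exact Finset.sum_le_sum_of_subset_of_nonneg hst fun i _ _ =>
      Finset.sum_nonneg fun φ _ => hnn φ i
  rw [Finset.sum_const, nsmul_eq_mul, Finset.sum_comm] at h5
  simp_rw [hφ] at h5
  rw [Finset.sum_const, Finset.card_univ, nsmul_eq_mul] at h5
  have h6 : C * ((s.card : ℝ) * e) ≤ C * N := by
    calc C * ((s.card : ℝ) * e) = (s.card : ℝ) * (C * e) := by ring
      _ ≤ _ := h5
  exact le_of_mul_le_mul_left h6 hcard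

end Cfsg.Agent.Lib.GalSimplex
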