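import Mathlib
import Cfsg.Agent.Lib.PrimeCycleJ

set_option autoImplicit false
set_option linter.style.haveILetI false
set_option linter.unusedSectionVars false
set_option linter.unusedVariables false

namespace Cfsg.Agent.Lib.GenCycles

open Equiv Equiv.Perm MulAction Cfsg.Agent.Lib.PrimeCycleJ

variable {β : Type*} [Fintype β] [DecidableEq β]

/-- A transitive group containing a prime cycle moving more than half of the points is primitive. -/
theorem isPreprimitive_of_large_cycle {α : Type*} [Fintype α] [DecidableEq α]
    {G : Subgroup (Perm α)} (htr : IsPretransitive G α) {y : Perm α} (hy : y ∈ G) (hyc : y.IsCycle)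
    (hq : y.support.card.Prime) (hlarge : Fintype.card α < 2 * y.support.card) :
    IsPreprimitive G α := by
  classical
  set s : Set α := ((y.support : Set α)ᶜ) with hs
  haveI hpre : IsPretransitive (fixingSubgroup G s) (SubMulAction.ofFixingSubgroup G s) :=
    isPretransitive_of_isCycle_mem hyc hy
  have hcardX : Nat.card (SubMulAction.ofFixingSubgroup G s) = y.support.card := by
    rw [Nat.card_eq_fintype_card, Fintype.card_subtype]
    apply congr_arg
    ext w
    simp [SubMulAction.mem_ofFixingSubgroup_iff, hs]
  haveI hprim : IsPreprimitive (fixingSubgroup G s) (SubMulAction.ofFixingSubgroup G s) := by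
    apply IsPreprimitive.of_prime_card
    rw [hcardX]
    exact hq
  let f : SubMulAction.ofFixingSubgroup G s →ₑ[((↑) : fixingSubgroup G s → G)] α :=
    { toFun := fun a => a.1
      map_smul' := fun g a => rfl }
  have hrange : (Set.range f).ncard = y.support.card := by
    have h1 : Set.range f = (y.support : Set α) := by
      ext w
      constructor
      · rintro ⟨a, rfl⟩
        have : a.1 ∉ s := (SubMulAction.mem_ofFixingSubgroup_iff G).1 a.2
        show a.1 ∈ (y.support : Set α)
        simpa [hs] using this
      · intro hw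
        refine ⟨⟨w, ?_⟩, rfl⟩
        simpa [SubMulAction.mem_ofFixingSubgroup_iff, hs] using hw
    rw [h1, Set.ncard_coe_finset]
  apply IsPreprimitive.of_card_lt (f := f)
  rw [hrange, Nat.card_eq_fintype_card]
  exact hlarge

/-! ### The moved points of two permutations -/

/-- A point moved by `x` or `y`. -/
abbrev Moved (x y : Perm β) : Type _ := {w : β // x w ≠ w ∨ y w ≠ w}

theorem moved_iff_left (x y : Perm β) (w : β) :
    (x (x w) ≠ x w ∨ y (x w) ≠ x w) ↔ (x w ≠ w ∨ y w ≠ w) := by
  have h1 : x (x w) ≠ x w ↔ x w ≠ w := x.injective.ne_iff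
  by_cases h : x w = w
  · simp only [h, ne_eq, not_true_eq_false, false_or]
  · simp [h, h1]

theorem moved_iff_right (x y : Perm β) (w : β) :
    (x (y w) ≠ y w ∨ y (y w) ≠ y w) ↔ (x w ≠ w ∨ y w ≠ w) := by
  rw [or_comm, moved_iff_left y x w, or_comm]

/-- Restriction to the moved points. -/
def resL (x y : Perm β) : Perm (Moved x y) :=
  x.subtypePerm (fun w => (moved_iff_left x y w))

/-- Restriction to the moved points. -/
def resR (x y : Perm β) : Perm (Moved x y) :=
  y.subtypePerm (fun w => (moved_iff_right x y w))

@[simp] theorem resL_apply (x y : Perm β) (w : Moved x y) : (resL x y w : β) = x w := rfl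
@[simp] theorem resR_apply (x y : Perm β) (w : Moved x y) : (resR x y w : β) = y w := rfl

theorem ofSubtype_resL (x y : Perm β) : (ofSubtype (resL x y) : Perm β) = x :=
  ofSubtype_subtypePerm _ (fun w hw => Or.inl hw)

theorem ofSubtype_resR (x y : Perm β) : (ofSubtype (resR x y) : Perm β) = y :=
  ofSubtype_subtypePerm _ (fun w hw => Or.inr hw)

theorem cycleType_resL (x y : Perm β) : (resL x y).cycleType = x.cycleType := by
  conv_rhs => rw [← ofSubtype_resL x y]
  rw [cycleType_ofSubtype]

theorem cycleType_resR (x y : Perm β) : (resR x y).cycleType = y.cycleType := by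
  conv_rhs => rw [← ofSubtype_resR x y]
  rw [cycleType_ofSubtype]

theorem isCycle_resL {x y : Perm β} (h : x.IsCycle) : (resL x y).IsCycle := by
  rw [← card_cycleType_eq_one, cycleType_resL, card_cycleType_eq_one]; exact h

theorem isCycle_resR {x y : Perm β} (h : y.IsCycle) : (resR x y).IsCycle := by
  rw [← card_cycleType_eq_one, cycleType_resR, card_cycleType_eq_one]; exact h

theorem card_support_resL (x y : Perm β) : (resL x y).support.card = x.support.card := by
  rw [← sum_cycleType, cycleType_resL, sum_cycleType]

theorem card_support_resR (x y : Perm β) : (resR x y).support.card = y.support.card := by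
  rw [← sum_cycleType, cycleType_resR, sum_cycleType]

/-- The subgroup of `Perm (Moved x y)` generated by the restrictions. -/
def resGroup (x y : Perm β) : Subgroup (Perm (Moved x y)) :=
  Subgroup.closure {resL x y, resR x y}

theorem resL_mem (x y : Perm β) : resL x y ∈ resGroup x y :=
  Subgroup.subset_closure (by simp)

theorem resR_mem (x y : Perm β) : resR x y ∈ resGroup x y :=
  Subgroup.subset_closure (by simp)

theorem card_moved_le (x y : Perm β) : Fintype.card (Moved x y) ≤ Fintype.card β :=
  Fintype.card_subtype_le _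

theorem le_card_moved_right (x y : Perm β) : y.support.card ≤ Fintype.card (Moved x y) := by
  rw [← card_support_resR]
  exact Finset.card_le_univ _

theorem le_card_moved_left (x y : Perm β) : x.support.card ≤ Fintype.card (Moved x y) := by
  rw [← card_support_resL x y]
  exact Finset.card_le_univ _

/-- The closure in the alternating group is isomorphic to the alternating group of the moved
points as soon as the group generated by the restrictions contains it. -/
theorem nonempty_equiv_of_le (x y : alternatingGroup β)
    (h : alternatingGroup (Moved x.1 y.1) ≤ resGroup x.1 y.1) :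
    Nonempty (Subgroup.closure ({x, y} : Set (alternatingGroup β)) ≃*
      alternatingGroup (Fin (Fintype.card (Moved x.1 y.1)))) := by
  classical
  -- the image in `Perm β` in two ways
  have hmap1 : (Subgroup.closure ({x, y} : Set (alternatingGroup β))).map
      (alternatingGroup β).subtype = Subgroup.closure ({x.1, y.1} : Set (Perm β)) := by
    rw [MonoidHom.map_closure, Set.image_pair]
    rfl
  have hmap2 : (resGroup x.1 y.1).map (ofSubtype : Perm (Moved x.1 y.1) →* Perm β)
      = Subgroup.closure ({x.1, y.1} : Set (Perm β)) := by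
    rw [resGroup, MonoidHom.map_closure, Set.image_pair, ofSubtype_resL, ofSubtype_resR]
  have hx1 : sign x.1 = 1 := (mem_alternatingGroup.1 x.2)
  have hy1 : sign y.1 = 1 := (mem_alternatingGroup.1 y.2)
  have hGalt : resGroup x.1 y.1 = alternatingGroup (Moved x.1 y.1) := by
    apply le_antisymm _ h
    rw [resGroup, Subgroup.closure_le]
    intro g hg
    rcases hg with rfl | hg
    · show _ ∈ alternatingGroup _
      rw [mem_alternatingGroup, ← sign_ofSubtype, ofSubtype_resL, hx1]
    · rw [Set.mem_singleton_iff] at hg
      subst hg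
      show _ ∈ alternatingGroup _
      rw [mem_alternatingGroup, ← sign_ofSubtype, ofSubtype_resR, hy1]
  let e1 := Subgroup.equivMapOfInjective (Subgroup.closure ({x, y} : Set (alternatingGroup β)))
    (alternatingGroup β).subtype (alternatingGroup β).subtype_injective
  let e2 := Subgroup.equivMapOfInjective (resGroup x.1 y.1)
    (ofSubtype : Perm (Moved x.1 y.1) →* Perm β) ofSubtype_injective
  let e3 := MulEquiv.subgroupCongr (hmap1.trans hmap2.symm)
  let e4 := MulEquiv.subgroupCongr hGalt
  let e5 := Equiv.altCongrHom (Fintype.equivFin (Moved x.1 y.1))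
  exact ⟨e1.trans (e3.trans (e2.symm.trans (e4.trans e5)))⟩

/-- Primitivity of the group generated by the restrictions, when the cycle `y` moves more than half
of the points and `x` moves points along orbits meeting its support. -/
theorem isPreprimitive_resGroup {x y : Perm β} (hyc : y.IsCycle) (hq : y.support.card.Prime)
    (hlarge : Fintype.card β < 2 * y.support.card)
    (hconn : ∀ w, x w ≠ w → ∃ i : ℕ, y ((x ^ i) w) ≠ (x ^ i) w) :
    IsPreprimitive (resGroup x y) (Moved x y) := by
  classical
  have hyc' := isCycle_resR (x := x) hyc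
  apply isPreprimitive_of_large_cycle (y := resR x y) _ (resR_mem x y) hyc'
  · rw [card_support_resR]; exact hq
  · rw [card_support_resR]
    exact (card_moved_le x y).trans_lt hlarge
  -- transitivity
  obtain ⟨a, ha, hcyc⟩ := hyc
  let a₀ : Moved x y := ⟨a, Or.inr ha⟩
  have hzp : ∀ (g : Perm (Moved x y)) (i : ℤ) (w : Moved x y),
      ((g ^ i) w : β) = ((ofSubtype g : Perm β) ^ i) w.1 := by
    intro g i w
    rw [← map_zpow, ofSubtype_apply_coe]
  have hy : ∀ w : Moved x y, y w.1 ≠ w.1 → ∃ g : resGroup x y, g • a₀ = w := by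
    intro w hw
    obtain ⟨i, hi⟩ := hcyc hw
    refine ⟨⟨resR x y, resR_mem x y⟩ ^ i, ?_⟩
    apply Subtype.ext
    show (((resR x y) ^ i) a₀ : β) = w.1
    rw [hzp, ofSubtype_resR]
    exact hi
  rw [isPretransitive_iff_base a₀]
  intro w
  by_cases hw : y w.1 ≠ w.1
  · exact hy w hw
  · have hw' : x w.1 ≠ w.1 := w.2.resolve_right hw
    obtain ⟨i, hi⟩ := hconn w.1 hw'
    let v : Moved x y := (resL x y ^ (i : ℤ)) w
    have hv : v.1 = (x ^ i) w.1 := by
      show (((resL x y) ^ (i : ℤ)) w : β) = _
      rw [hzp, ofSubtype_resL, zpow_natCast]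
    obtain ⟨g, hg⟩ := hy v (by rw [hv]; exact hi)
    refine ⟨(⟨resL x y, resL_mem x y⟩ ^ (i : ℤ))⁻¹ * g, ?_⟩
    rw [mul_smul, hg]
    show (((resL x y) ^ (i : ℤ))⁻¹) v = w
    show (((resL x y) ^ (i : ℤ))⁻¹) ((resL x y ^ (i : ℤ)) w) = w
    simp

/-- Orbits of elements of prime order are large: if `x ^ p = 1` and `x w ≠ w` then the points
`x ^ i w`, `i < p`, are distinct. -/
theorem pow_apply_injective {x : Perm β} {p : ℕ} (hp : p.Prime) (hx : x ^ p = 1) {w : β}
    (hw : x w ≠ w) : Function.Injective (fun i : Fin p => (x ^ (i : ℕ)) w) := by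
  have key : ∀ k : ℕ, 0 < k → k < p → (x ^ k) w ≠ w := by
    intro k hk0 hkp hk
    have hco : Nat.Coprime k p := Nat.Coprime.symm ((Nat.Prime.coprime_iff_not_dvd hp).2
      (fun h => absurd (Nat.le_of_dvd hk0 h) (by omega)))
    obtain ⟨u, hu⟩ := Nat.exists_mul_mod_eq_one_of_coprime hco hp.one_lt
    have h1 : x ^ (k * u) = x := by
      rw [pow_eq_pow_mod (k * u) hx, hu.2, pow_one]
    apply hw
    rw [← h1, pow_mul]
    exact Perm.pow_apply_eq_self_of_apply_eq_self hk u
  intro i j hij
  simp only at hij
  by_contra hne
  have hne' : (i : ℕ) ≠ j := fun h => hne (Fin.ext h)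
  wlog hlt : (i : ℕ) < j generalizing i j
  · exact this hij.symm (Ne.symm hne) (Ne.symm hne') (by omega)
  have h1 : (x ^ ((j : ℕ) - i)) w = w := by
    have h2 : (x ^ (i : ℕ)) ((x ^ ((j : ℕ) - i)) w) = (x ^ (i : ℕ)) w := by
      rw [← Perm.mul_apply, ← pow_add, Nat.add_sub_cancel' hlt.le]
      exact hij.symm
    exact (x ^ (i : ℕ)).injective h2
  exact key _ (by omega) (by have := j.2; omega) h1

/-- The connectivity hypothesis holds as soon as `|β| < p + |supp y|`. -/
theorem connected_of_card {x y : Perm β} {p : ℕ} (hp : p.Prime) (hx : x ^ p = 1)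
    (hcard : Fintype.card β < p + y.support.card) :
    ∀ w, x w ≠ w → ∃ i : ℕ, y ((x ^ i) w) ≠ (x ^ i) w := by
  intro w hw
  by_contra hcon
  push Not at hcon
  let f : Fin p → β := fun i => (x ^ (i : ℕ)) w
  have hinj : Function.Injective f := pow_apply_injective hp hx hw
  have himg : Disjoint ((Finset.univ : Finset (Fin p)).image f) y.support := by
    rw [Finset.disjoint_left]
    intro v hv
    obtain ⟨i, -, rfl⟩ := Finset.mem_image.1 hv
    simp only [mem_support, not_not, f]
    exact hcon i
  have h1 := Finset.card_le_univ ((Finset.univ : Finset (Fin p)).image f ∪ y.support)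
  rw [Finset.card_union_of_disjoint himg, Finset.card_image_of_injective _ hinj, Finset.card_univ,
    Fintype.card_fin] at h1
  omega

/-- An element of prime order `p` with `|β| < 2 p` is a cycle with support of size `p`. -/
theorem isCycle_of_order {y : Perm β} {q : ℕ} (hq : q.Prime) (ho : orderOf y = q)
    (hl : Fintype.card β < 2 * q) : y.IsCycle ∧ y.support.card = q := by
  have h1 : y.IsCycle := isCycle_of_prime_order (ho ▸ hq) (by
    rw [ho]
    exact (Finset.card_le_univ _).trans_lt hl)
  exact ⟨h1, by rw [← h1.orderOf, ho]⟩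

/-- An element of prime order `p` is a cycle or has at least `2 p` moved points. -/
theorem isCycle_or_large {y : Perm β} {q : ℕ} (hq : q.Prime) (ho : orderOf y = q) :
    (y.IsCycle ∧ y.support.card = q) ∨ 2 * q ≤ y.support.card := by
  by_cases h : y.support.card < 2 * q
  · left
    have h1 : y.IsCycle := isCycle_of_prime_order (ho ▸ hq) (by rw [ho]; exact h)
    exact ⟨h1, by rw [← h1.orderOf, ho]⟩
  · right; omega

end Cfsg.Agent.Lib.GenCycles
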