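import Mathlib
import Cfsg.Agent.Lib.GenCycles

set_option autoImplicit false
set_option linter.style.haveILetI false
set_option linter.unusedSectionVars false
set_option linter.unusedVariables false

namespace Cfsg.Agent.Lib.GenCyclesSeven

open Equiv Equiv.Perm MulAction

/-- evaluation of a word in two elements of a monoid -/
def word {A : Type*} [Monoid A] (x y : A) : List Bool → A
  | [] => 1
  | b :: l => (if b then x else y) * word x y l

theorem map_word {A B : Type*} [Monoid A] [Monoid B] (f : A →* B) (x y : A) (l : List Bool) :
    f (word x y l) = word (f x) (f y) l := by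
  induction l with
  | nil => simp [word]
  | cons b l ih =>
    simp only [word, map_mul, ih]
    cases b <;> simp

theorem word_mem {A : Type*} [Group A] {G : Subgroup A} {x y : A} (hx : x ∈ G) (hy : y ∈ G)
    (l : List Bool) : word x y l ∈ G := by
  induction l with
  | nil => exact G.one_mem
  | cons b l ih =>
    simp only [word]
    cases b
    · exact G.mul_mem hy ih
    · exact G.mul_mem hx ih

/-! ### Degree 7 -/

def cyc5 (a b c d e : Fin 7) : Fin 7 → Fin 7 := fun i =>
  if i = a then b else if i = b then c else if i = c then d else if i = d then e else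
    if i = e then a else i

def y7f : Fin 7 → Fin 7 := ![1,2,3,4,5,6,0]

def evalW {n : ℕ} (f g : Fin n → Fin n) : List Bool → Fin n → Fin n
  | [], i => i
  | b :: l, i => (if b then f else g) (evalW f g l i)

def w7 : List (List Bool) :=
  [[true,false,true,false],[true,true,false,true,true,false],
   [true,true,true,false,true,true,true,false],
   [true,true,true,true,false,true,true,true,true,false],
   [true,false,false,true,false,false],[true,true,false,false,true,true,false,false],
   [true,true,true,false,false,true,true,true,false,false],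
   [true,false,false,false,true,false,false,false],
   [true,false,false,false,false,true,false,false,false,false],
   [true,true,false,false,false,true,true,false,false,false],
   [true,false,true,false,false,false],[true,true,true,false,false,true,false,true,false,false],
   [true,true,true,false,true,false,false],[true,true,true,false,false,true,false],
   [true,true,true,false,true,false,true,false,false],
   [true,true,true,false,false,true,false,true,false]]

def moved3 {n : ℕ} (f : Fin n → Fin n) : Bool :=
  decide ((Finset.univ.filter (fun i => f i ≠ i)).card = 3)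

def check7 (a b c d e : Fin 7) : Bool :=
  w7.any (fun w => moved3 (evalW (cyc5 a b c d e) y7f w))

def all7 : Bool :=
  (List.finRange 7).all fun a => (List.finRange 7).all fun b => !(decide (a < b)) ||
    (List.finRange 7).all fun c => !(decide (a < c)) || !(decide (b ≠ c)) ||
    (List.finRange 7).all fun d => !(decide (a < d)) || !(decide (b ≠ d)) || !(decide (c ≠ d)) ||
    (List.finRange 7).all fun e => !(decide (a < e)) || !(decide (b ≠ e)) || !(decide (c ≠ e)) ||
      !(decide (d ≠ e)) || check7 a b c d e

theorem all7_true : all7 = true := by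
  decide +kernel

theorem check7_of {a b c d e : Fin 7} (h1 : a < b) (h2 : a < c) (h3 : a < d) (h4 : a < e)
    (h5 : b ≠ c) (h6 : b ≠ d) (h7 : b ≠ e) (h8 : c ≠ d) (h9 : c ≠ e) (h10 : d ≠ e) :
    check7 a b c d e = true := by
  have h := all7_true
  unfold all7 at h
  have h := List.all_eq_true.1 h a (List.mem_finRange a)
  have h := List.all_eq_true.1 h b (List.mem_finRange b)
  rw [decide_eq_true h1, Bool.not_true, Bool.false_or] at h
  have h := List.all_eq_true.1 h c (List.mem_finRange c)
  rw [decide_eq_true h2, decide_eq_true h5, Bool.not_true, Bool.false_or, Bool.false_or] at h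
  have h := List.all_eq_true.1 h d (List.mem_finRange d)
  rw [decide_eq_true h3, decide_eq_true h6, decide_eq_true h8, Bool.not_true, Bool.false_or,
    Bool.false_or, Bool.false_or] at h
  have h := List.all_eq_true.1 h e (List.mem_finRange e)
  rw [decide_eq_true h4, decide_eq_true h7, decide_eq_true h9, decide_eq_true h10, Bool.not_true,
    Bool.false_or, Bool.false_or, Bool.false_or, Bool.false_or] at h
  exact h

/-- A word in permutations agrees with the evaluated function. -/
theorem word_apply {n : ℕ} {x y : Perm (Fin n)} {f g : Fin n → Fin n} (hf : ∀ i, x i = f i)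
    (hg : ∀ i, y i = g i) (l : List Bool) (i : Fin n) : (word x y l) i = evalW f g l i := by
  induction l with
  | nil => rfl
  | cons b l ih =>
    simp only [word, evalW, Perm.mul_apply, ih]
    cases b
    · simp [hg]
    · simp [hf]

theorem card_support_of_moved3 {n : ℕ} {z : Perm (Fin n)} {f : Fin n → Fin n} (hf : ∀ i, z i = f i)
    (h : moved3 f = true) : z.support.card = 3 := by
  have h1 := of_decide_eq_true h
  rw [← h1]
  congr 1
  ext i
  simp [hf]

theorem card_support_permCongrHom {α β : Type*} [Fintype α] [DecidableEq α] [Fintype β]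
    [DecidableEq β] (e : α ≃ β) (z : Perm α) : (e.permCongrHom z).support.card = z.support.card := by
  have h : (e.permCongrHom z).support = z.support.map e.toEmbedding := by
    ext w
    simp only [mem_support, Finset.mem_map, Equiv.coe_toEmbedding]
    constructor
    · intro hw
      refine ⟨e.symm w, ?_, e.apply_symm_apply w⟩
      intro h2
      apply hw
      show e (z (e.symm w)) = w
      rw [h2, e.apply_symm_apply]
    · rintro ⟨v, hv, rfl⟩
      intro h2
      apply hv
      have h3 : e (z (e.symm (e v))) = e v := h2
      rw [e.symm_apply_apply] at h3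
      exact e.injective h3
  rw [h, Finset.card_map]

/-- A 5-cycle in `Fin 7` is given by its data. -/
theorem exists_cyc5 {x : Perm (Fin 7)} (hc : x.IsCycle) (hs : x.support.card = 5) :
    ∃ a b c d e : Fin 7, a < b ∧ a < c ∧ a < d ∧ a < e ∧ b ≠ c ∧ b ≠ d ∧ b ≠ e ∧ c ≠ d ∧ c ≠ e ∧
      d ≠ e ∧ ∀ i, x i = cyc5 a b c d e i := by
  have hne : x.support.Nonempty := by
    rw [← Finset.card_pos]; omega
  set a := x.support.min' hne with ha
  have hamem : a ∈ x.support := Finset.min'_mem _ _
  have hamin : ∀ w ∈ x.support, a ≤ w := fun w hw => Finset.min'_le _ _ hw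
  have hxa : x a ≠ a := by simpa using hamem
  have hx5 : x ^ 5 = 1 := by
    rw [← hs, ← hc.orderOf]; exact pow_orderOf_eq_one x
  have hinj := Cfsg.Agent.Lib.GenCycles.pow_apply_injective (by norm_num : Nat.Prime 5) hx5 hxa
  let pw : ℕ → Fin 7 := fun k => (x ^ k) a
  have hpw : ∀ k, x (pw k) = pw (k + 1) := by
    intro k
    show x ((x ^ k) a) = (x ^ (k + 1)) a
    rw [pow_succ', Perm.mul_apply]
  have hpw0 : pw 0 = a := rfl
  have hpw5 : pw 5 = a := by
    show (x ^ 5) a = a
    rw [hx5]; rfl
  have hne' : ∀ i j : ℕ, i < 5 → j < 5 → i ≠ j → pw i ≠ pw j := by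
    intro i j hi hj hij h
    have := @hinj ⟨i, hi⟩ ⟨j, hj⟩ h
    exact hij (by simpa using this)
  have hmem : ∀ k, pw k ∈ x.support := by
    intro k
    induction k with
    | zero => exact hamem
    | succ k ih =>
      rw [← hpw, mem_support]
      intro h
      rw [mem_support] at ih
      exact ih (x.injective h)
  have hlt : ∀ k, 0 < k → k < 5 → a < pw k := by
    intro k h0 h5
    refine lt_of_le_of_ne (hamin _ (hmem k)) ?_
    have := hne' 0 k (by norm_num) h5 (by omega)
    rw [hpw0] at this
    exact this
  -- support is exactly the five points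
  have hsupp : ∀ i, x i ≠ i → i = pw 0 ∨ i = pw 1 ∨ i = pw 2 ∨ i = pw 3 ∨ i = pw 4 := by
    have hsub : ({pw 0, pw 1, pw 2, pw 3, pw 4} : Finset (Fin 7)) ⊆ x.support := by
      intro w hw
      simp only [Finset.mem_insert, Finset.mem_singleton] at hw
      rcases hw with rfl | rfl | rfl | rfl | rfl <;> exact hmem _
    have hcard5 : ({pw 0, pw 1, pw 2, pw 3, pw 4} : Finset (Fin 7)).card = 5 := by
      rw [Finset.card_insert_of_notMem, Finset.card_insert_of_notMem, Finset.card_insert_of_notMem,
        Finset.card_insert_of_notMem, Finset.card_singleton]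
      · simpa using hne' 3 4 (by norm_num) (by norm_num) (by norm_num)
      · simp only [Finset.mem_insert, Finset.mem_singleton, not_or]
        exact ⟨hne' 2 3 (by norm_num) (by norm_num) (by norm_num),
          hne' 2 4 (by norm_num) (by norm_num) (by norm_num)⟩
      · simp only [Finset.mem_insert, Finset.mem_singleton, not_or]
        exact ⟨hne' 1 2 (by norm_num) (by norm_num) (by norm_num),
          hne' 1 3 (by norm_num) (by norm_num) (by norm_num),
          hne' 1 4 (by norm_num) (by norm_num) (by norm_num)⟩
      · simp only [Finset.mem_insert, Finset.mem_singleton, not_or]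
        exact ⟨hne' 0 1 (by norm_num) (by norm_num) (by norm_num),
          hne' 0 2 (by norm_num) (by norm_num) (by norm_num),
          hne' 0 3 (by norm_num) (by norm_num) (by norm_num),
          hne' 0 4 (by norm_num) (by norm_num) (by norm_num)⟩
    have heq := Finset.eq_of_subset_of_card_le hsub (by rw [hs, hcard5])
    intro i hi
    have : i ∈ x.support := by simpa using hi
    rw [← heq] at this
    simpa only [Finset.mem_insert, Finset.mem_singleton] using this
  refine ⟨a, pw 1, pw 2, pw 3, pw 4, hlt 1 (by norm_num) (by norm_num),
    hlt 2 (by norm_num) (by norm_num), hlt 3 (by norm_num) (by norm_num),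
    hlt 4 (by norm_num) (by norm_num), hne' 1 2 (by norm_num) (by norm_num) (by norm_num),
    hne' 1 3 (by norm_num) (by norm_num) (by norm_num),
    hne' 1 4 (by norm_num) (by norm_num) (by norm_num),
    hne' 2 3 (by norm_num) (by norm_num) (by norm_num),
    hne' 2 4 (by norm_num) (by norm_num) (by norm_num),
    hne' 3 4 (by norm_num) (by norm_num) (by norm_num), fun i => ?_⟩
  unfold cyc5
  by_cases hi : x i = i
  · -- fixed
    have h0 : ∀ k, i ≠ pw k := fun k h => by
      have := hmem k
      rw [← h, mem_support] at this
      exact this hi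
    rw [if_neg (by rw [← hpw0]; exact h0 0), if_neg (h0 1), if_neg (h0 2), if_neg (h0 3),
      if_neg (h0 4), hi]
  · have h01 := hne' 0 1 (by norm_num) (by norm_num) (by norm_num)
    have h02 := hne' 0 2 (by norm_num) (by norm_num) (by norm_num)
    have h03 := hne' 0 3 (by norm_num) (by norm_num) (by norm_num)
    have h04 := hne' 0 4 (by norm_num) (by norm_num) (by norm_num)
    have h12 := hne' 1 2 (by norm_num) (by norm_num) (by norm_num)
    have h13 := hne' 1 3 (by norm_num) (by norm_num) (by norm_num)
    have h14 := hne' 1 4 (by norm_num) (by norm_num) (by norm_num)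
    have h23 := hne' 2 3 (by norm_num) (by norm_num) (by norm_num)
    have h24 := hne' 2 4 (by norm_num) (by norm_num) (by norm_num)
    have h34 := hne' 3 4 (by norm_num) (by norm_num) (by norm_num)
    rw [hpw0] at h01 h02 h03 h04
    rcases hsupp i hi with rfl | rfl | rfl | rfl | rfl
    · rw [hpw0, if_pos rfl]
      have := hpw 0
      rwa [hpw0] at this
    · rw [if_neg (Ne.symm h01), if_pos rfl, hpw]
    · rw [if_neg (Ne.symm h02), if_neg (Ne.symm h12), if_pos rfl, hpw]
    · rw [if_neg (Ne.symm h03), if_neg (Ne.symm h13), if_neg (Ne.symm h23), if_pos rfl, hpw]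
    · rw [if_neg (Ne.symm h04), if_neg (Ne.symm h14), if_neg (Ne.symm h24), if_neg (Ne.symm h34),
        if_pos rfl, hpw, hpw5]


end Cfsg.Agent.Lib.GenCyclesSeven
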