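import Mathlib
import Cfsg.Agent.Lib.GenCyclesSeven

set_option autoImplicit false
set_option linter.style.haveILetI false
set_option linter.unusedSectionVars false
set_option linter.unusedVariables false

namespace Cfsg.Agent.Lib.GenCyclesSeven

open Equiv Equiv.Perm MulAction

/-- Enumerating a full cycle. -/
theorem exists_equiv_of_full_cycle {α : Type*} [Fintype α] [DecidableEq α] {n : ℕ} (hn : n.Prime)
    (hcard : Fintype.card α = n) {y : Perm α} (hyc : y.IsCycle) (hys : y.support.card = n) :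
    ∃ e : Fin n ≃ α, ∀ i : Fin n, y (e i) = e ⟨((i : ℕ) + 1) % n, Nat.mod_lt _ hn.pos⟩ := by
  have hne : y.support.Nonempty := by
    rw [← Finset.card_pos, hys]; exact hn.pos
  obtain ⟨a, ha⟩ := hne
  have hya : y a ≠ a := by simpa using ha
  have hyn : y ^ n = 1 := by
    rw [← hys, ← hyc.orderOf]; exact pow_orderOf_eq_one y
  have hinj := Cfsg.Agent.Lib.GenCycles.pow_apply_injective hn hyn hya
  have hbij : Function.Bijective (fun i : Fin n => (y ^ (i : ℕ)) a) := by
    rw [Fintype.bijective_iff_injective_and_card]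
    exact ⟨hinj, by rw [Fintype.card_fin, hcard]⟩
  refine ⟨Equiv.ofBijective _ hbij, fun i => ?_⟩
  show y ((y ^ (i : ℕ)) a) = (y ^ (((i : ℕ) + 1) % n)) a
  rw [← pow_eq_pow_mod _ hyn, pow_succ', Perm.mul_apply]

def y7 : Perm (Fin 7) := ⟨y7f, ![6,0,1,2,3,4,5], by decide, by decide⟩

/-- **Degree 7**: a primitive group containing a 5-cycle and a 7-cycle contains `A₇`. -/
theorem alternatingGroup_le_seven {α : Type*} [Fintype α] [DecidableEq α]
    (hcard : Fintype.card α = 7) {G : Subgroup (Perm α)} (hG : IsPreprimitive G α) {x y : Perm α}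
    (hx : x ∈ G) (hy : y ∈ G) (hxc : x.IsCycle) (hxs : x.support.card = 5)
    (hyc : y.IsCycle) (hys : y.support.card = 7) : alternatingGroup α ≤ G := by
  classical
  obtain ⟨e, he⟩ := exists_equiv_of_full_cycle (by norm_num : Nat.Prime 7) hcard hyc hys
  let Φ : Perm α ≃* Perm (Fin 7) := e.symm.permCongrHom
  have hΦ : ∀ (z : Perm α) (i : Fin 7), Φ z i = e.symm (z (e i)) := fun z i => rfl
  have hΦy : ∀ i, Φ y i = y7f i := by
    intro i
    rw [hΦ, he, Equiv.symm_apply_apply]
    revert i
    decide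
  have hsuppΦ : ∀ z, (Φ z).support.card = z.support.card := fun z =>
    card_support_permCongrHom e.symm z
  have hxc' : (Φ x).IsCycle ∧ (Φ x).support.card = 5 := by
    refine Cfsg.Agent.Lib.GenCycles.isCycle_of_order (by norm_num : Nat.Prime 5) ?_ (by simp)
    rw [MulEquiv.orderOf_eq, hxc.orderOf, hxs]
  obtain ⟨a, b, c, d, f, h1, h2, h3, h4, h5, h6, h7, h8, h9, h10, hform⟩ :=
    exists_cyc5 hxc'.1 hxc'.2
  have hcheck := check7_of h1 h2 h3 h4 h5 h6 h7 h8 h9 h10
  obtain ⟨w, -, hw⟩ := List.any_eq_true.1 hcheck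
  let z := word x y w
  have hz : Φ z = word (Φ x) (Φ y) w := map_word Φ.toMonoidHom x y w
  have hz3 : z.support.card = 3 := by
    rw [← hsuppΦ, hz]
    refine card_support_of_moved3 (fun i => ?_) hw
    exact word_apply hform hΦy w i
  exact alternatingGroup_le_of_isPreprimitive_of_isThreeCycle_mem hG
    (card_support_eq_three_iff.1 hz3) (word_mem hx hy w)

end Cfsg.Agent.Lib.GenCyclesSeven
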