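import Mathlib
import Cfsg.Agent.Lib.GenCyclesSeven
import Cfsg.Agent.Lib.GenCycles

set_option autoImplicit false
set_option linter.style.haveILetI false
set_option linter.unusedSectionVars false
set_option linter.unusedVariables false

namespace Cfsg.Agent.Lib.GenCyclesSix

open Equiv Equiv.Perm MulAction Cfsg.Agent.Lib.GenCyclesSeven

def y6f : Fin 6 → Fin 6 := ![1,2,3,4,0,5]

def y6 : Perm (Fin 6) := ⟨y6f, ![4,0,1,2,3,5], by decide, by decide⟩

/-- The colouring of the edges of `K₆` with five colours (a one-factorization). -/
def col (u v : Fin 6) : Fin 5 :=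
  if u = 5 then Fin.ofNat 5 v.val else if v = 5 then Fin.ofNat 5 u.val
  else Fin.ofNat 5 (3 * (u.val + v.val))

def rho (g : Perm (Fin 6)) (i : Fin 5) : Fin 5 := col (g 5) (g i.castSucc)

/-- `g` permutes the five colour classes. -/
def InSt (g : Perm (Fin 6)) : Prop := ∀ u v, u ≠ v → col (g u) (g v) = rho g (col u v)

instance (g : Perm (Fin 6)) : Decidable (InSt g) := by
  unfold InSt; infer_instance

theorem inSt_y6 : InSt y6 := by decide +kernel

def w61 : List Bool := [true,false,true,false,true,false,false,false,false]
def w62 : List Bool := [true,false,false,true,false,false,true,false,false,false]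

set_option maxRecDepth 100000 in
theorem check6 : ∀ x : Perm (Fin 6), x ^ 3 = 1 → x.support.card = 6 →
    InSt x ∨ (word x y6 w61).support.card = 3 ∨ (word x y6 w62).support.card = 3 := by
  decide +kernel

set_option maxRecDepth 100000 in
theorem inSt_inv : ∀ g : Perm (Fin 6), InSt g → InSt g⁻¹ := by
  decide +kernel

set_option maxRecDepth 100000 in
theorem inSt_inj : ∀ g : Perm (Fin 6), InSt g → (∀ i, rho g i = i) → g = 1 := by
  decide +kernel

theorem col_five : ∀ i : Fin 5, col 5 i.castSucc = i := by decide

theorem five_ne_castSucc (i : Fin 5) : (5 : Fin 6) ≠ i.castSucc := by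
  revert i; decide

theorem rho_mul {g h : Perm (Fin 6)} (hg : InSt g) (i : Fin 5) :
    rho (g * h) i = rho g (rho h i) := by
  show col (g (h 5)) (g (h i.castSucc)) = rho g (col (h 5) (h i.castSucc))
  exact hg _ _ (fun he => five_ne_castSucc i (h.injective he))

theorem rho_one (i : Fin 5) : rho 1 i = i := col_five i

/-- The stabilizer of the one-factorization. -/
def St : Subgroup (Perm (Fin 6)) where
  carrier := {g | InSt g}
  mul_mem' := by
    intro g h hg hh u v huv
    show col (g (h u)) (g (h v)) = rho (g * h) (col u v)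
    rw [rho_mul hg, ← hh u v huv]
    exact hg _ _ (fun he => huv (h.injective he))
  one_mem' := by
    intro u v huv
    show col u v = rho 1 (col u v)
    rw [rho_one]
  inv_mem' := fun {g} hg => inSt_inv g hg

/-- The action on the five colours. -/
def rhoEnd : St →* Function.End (Fin 5) where
  toFun g := rho g
  map_one' := by
    funext i
    exact rho_one i
  map_mul' g h := by
    funext i
    exact rho_mul g.2 i

def rhoHom : St →* Perm (Fin 5) := MonoidHom.toHomPerm rhoEnd

theorem rhoHom_apply (g : St) (i : Fin 5) : rhoHom g i = rho g i := rfl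

theorem rhoHom_injective : Function.Injective rhoHom := by
  rw [injective_iff_map_eq_one]
  intro g hg
  apply Subtype.ext
  apply inSt_inj g.1 g.2
  intro i
  rw [← rhoHom_apply, hg]
  rfl

/-- In degree five, a `3`-cycle and a `5`-cycle generate the alternating group. -/
theorem closure_eq_alternating_five {a b : Perm (Fin 5)} (ha : orderOf a = 3) (hb : orderOf b = 5) :
    Subgroup.closure {a, b} = alternatingGroup (Fin 5) := by
  obtain ⟨hac, has⟩ := Cfsg.Agent.Lib.GenCycles.isCycle_of_order (by norm_num : Nat.Prime 3) ha
    (by simp)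
  obtain ⟨hbc, hbs⟩ := Cfsg.Agent.Lib.GenCycles.isCycle_of_order (by norm_num : Nat.Prime 5) hb
    (by simp)
  have ha3 : IsThreeCycle a := card_support_eq_three_iff.1 has
  set K := Subgroup.closure ({a, b} : Set (Perm (Fin 5))) with hK
  have haK : a ∈ K := Subgroup.subset_closure (by simp)
  have hbK : b ∈ K := Subgroup.subset_closure (by simp)
  have hsupp : ∀ w, b w ≠ w := by
    intro w
    have h1 : b.support = Finset.univ := Finset.eq_univ_of_card _ (by simpa using hbs)
    have h2 : w ∈ b.support := by rw [h1]; exact Finset.mem_univ w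
    simpa using h2
  have htr : IsPretransitive K (Fin 5) := by
    rw [isPretransitive_iff_base (0 : Fin 5)]
    intro w
    obtain ⟨i, hi⟩ := hbc.sameCycle (hsupp 0) (hsupp w)
    exact ⟨⟨b, hbK⟩ ^ i, hi⟩
  have hprim : IsPreprimitive K (Fin 5) := by
    apply IsPreprimitive.of_prime_card
    simp only [Nat.card_eq_fintype_card, Fintype.card_fin]
    norm_num
  apply le_antisymm
  · rw [hK, Subgroup.closure_le]
    rintro g (rfl | hg)
    · exact ha3.sign
    · rw [Set.mem_singleton_iff] at hg
      subst hg
      show sign g = 1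
      rw [hbc.sign, hbs]
      rfl
  · exact alternatingGroup_le_of_isPreprimitive_of_isThreeCycle_mem hprim ha3 haK

/-- Two elements of orders `3` and `5` in the stabilizer of the one-factorization generate a copy of
`A₅`. -/
theorem nonempty_equiv_of_inSt {x y : Perm (Fin 6)} (hx : InSt x) (hy : InSt y) (hxo : orderOf x = 3)
    (hyo : orderOf y = 5) :
    Nonempty (Subgroup.closure ({x, y} : Set (Perm (Fin 6))) ≃* alternatingGroup (Fin 5)) := by
  classical
  let x₁ : St := ⟨x, hx⟩
  let y₁ : St := ⟨y, hy⟩
  let K : Subgroup St := Subgroup.closure {x₁, y₁}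
  have hmap1 : K.map St.subtype = Subgroup.closure ({x, y} : Set (Perm (Fin 6))) := by
    rw [MonoidHom.map_closure, Set.image_pair]
    rfl
  have hmap2 : K.map rhoHom = alternatingGroup (Fin 5) := by
    rw [MonoidHom.map_closure, Set.image_pair]
    apply closure_eq_alternating_five
    · rw [orderOf_injective rhoHom rhoHom_injective]
      rw [← Subgroup.orderOf_coe]
      exact hxo
    · rw [orderOf_injective rhoHom rhoHom_injective]
      rw [← Subgroup.orderOf_coe]
      exact hyo
  let e1 := Subgroup.equivMapOfInjective K St.subtype St.subtype_injective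
  let e2 := Subgroup.equivMapOfInjective K rhoHom rhoHom_injective
  let e3 := MulEquiv.subgroupCongr hmap1
  let e4 := MulEquiv.subgroupCongr hmap2
  exact ⟨(e1.trans e3).symm.trans (e2.trans e4)⟩

theorem y6_pow : y6 ^ 5 = 1 := by decide

theorem y6_ne : y6 ≠ 1 := by decide

theorem orderOf_y6 : orderOf y6 = 5 :=
  haveI : Fact (Nat.Prime 5) := ⟨by norm_num⟩
  orderOf_eq_prime y6_pow y6_ne

end Cfsg.Agent.Lib.GenCyclesSix
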