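import Mathlib
import Cfsg.Agent.Lib.PrimeCycleJ
import Cfsg.Agent.Lib.GenCycles

/-!
# Two cycles of lengths 11 and 13 in degree 13

A primitive subgroup of `A₁₃` containing an 11-cycle and a 13-cycle is `A₁₃`.
-/

set_option autoImplicit false
set_option linter.style.haveILetI false
set_option linter.unusedSectionVars false
set_option linter.unusedVariables false

namespace Cfsg.Agent.Lib.GenCyclesThirteen

open Equiv Equiv.Perm MulAction Cfsg.Agent.Lib.PrimeCycleJ Cfsg.Agent.Lib.GenCycles

/-! ### Burnside's transfer theorem for elements of prime order -/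

theorem exists_normal_complement {A : Type*} [Group A] [Finite A] {r : ℕ} (hr : r.Prime)
    (hA : ¬ r ^ 2 ∣ Nat.card A) {x : A} (hx : orderOf x = r)
    (hn : ∀ n : A, n * x * n⁻¹ ∈ Subgroup.zpowers x → Commute n x) :
    ∃ W : Subgroup A, W.Normal ∧ W.IsComplement' (Subgroup.zpowers x) := by
  classical
  haveI : Fact r.Prime := ⟨hr⟩
  have hfac : (Nat.card A).factorization r = 1 := by
    have h1 : r ∣ Nat.card A := hx ▸ orderOf_dvd_natCard x
    have hne : Nat.card A ≠ 0 := Nat.card_pos.ne'
    have h2 : 1 ≤ (Nat.card A).factorization r :=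
      (hr.pow_dvd_iff_le_factorization hne).1 (by simpa using h1)
    have h3 : ¬ 2 ≤ (Nat.card A).factorization r := fun h =>
      hA ((hr.pow_dvd_iff_le_factorization hne).2 h)
    omega
  let P : Sylow r A := Sylow.ofCard (Subgroup.zpowers x) (by
    rw [Nat.card_zpowers, hx, hfac, pow_one])
  have hP : (P : Subgroup A) = Subgroup.zpowers x := rfl
  have hcent : Subgroup.normalizer ((P : Subgroup A) : Set A)
      ≤ Subgroup.centralizer ((P : Subgroup A) : Set A) := by
    intro n hnn
    rw [Subgroup.mem_centralizer_iff]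
    intro g hg
    have hg' : g ∈ Subgroup.zpowers x := hg
    have h1 : n * x * n⁻¹ ∈ Subgroup.zpowers x := by
      rw [← hP]
      exact (Subgroup.mem_normalizer_iff.1 hnn x).1 (by rw [hP]; exact Subgroup.mem_zpowers x)
    have h2 : Commute n x := hn n h1
    obtain ⟨k, rfl⟩ := Subgroup.mem_zpowers_iff.1 hg'
    exact (h2.zpow_right k).eq.symm
  exact ⟨(MonoidHom.transferSylow P hcent).ker, inferInstance,
    MonoidHom.ker_transferSylow_isComplement' P hcent⟩

/-- A primitive faithful action on a prime number of points: if normalizer and centralizer of an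
element of prime order coincide then the group is generated by this element. -/
theorem mem_zpowers_of_prim {A X : Type*} [Group A] [MulAction A X] [Finite A] [Finite X]
    [IsPreprimitive A X] [FaithfulSMul A X] {r : ℕ} (hr : r.Prime) (hcard : Nat.card X = r)
    (hA : ¬ r ^ 2 ∣ Nat.card A) {x : A} (hx : orderOf x = r)
    (hn : ∀ n : A, n * x * n⁻¹ ∈ Subgroup.zpowers x → Commute n x) (a : A) :
    a ∈ Subgroup.zpowers x := by
  classical
  obtain ⟨W, hW, hc⟩ := exists_normal_complement hr hA hx hn
  have hmul : Nat.card W * r = Nat.card A := by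
    have := hc.card_mul_card
    rwa [Nat.card_zpowers, hx] at this
  -- `W` is trivial
  have hW1 : W = ⊥ := by
    by_contra hne
    have hfix : fixedPoints W X ≠ Set.univ := by
      intro hall
      apply hne
      rw [eq_bot_iff]
      intro g hg
      rw [Subgroup.mem_bot]
      apply eq_of_smul_eq_smul (α := X)
      intro p
      have hp : p ∈ fixedPoints W X := by rw [hall]; exact Set.mem_univ p
      rw [one_smul]
      exact hp ⟨g, hg⟩
    haveI htr : IsPretransitive W X := IsQuasiPreprimitive.isPretransitive_of_normal hfix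
    have hne' : Nonempty X := by
      by_contra hemp
      rw [not_nonempty_iff] at hemp
      have : Nat.card X = 0 := Nat.card_of_isEmpty
      have := hr.pos
      omega
    obtain ⟨p⟩ := hne'
    have h1 : Nat.card (orbit W p) * Nat.card (stabilizer W p) = Nat.card W := by
      have := (stabilizer W p).card_mul_index
      rw [index_stabilizer] at this
      rw [← this, mul_comm]
      congr 1
    have h2 : Nat.card (orbit W p) = r := by
      rw [orbit_eq_univ, Nat.card_coe_set_eq, Set.ncard_univ, hcard]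
    rw [h2] at h1
    apply hA
    rw [← hmul, ← h1, pow_two]
    exact mul_dvd_mul_right (Dvd.intro _ rfl) r
  -- hence the cyclic group is everything
  have h2 : Nat.card A = r := by
    rw [← hmul, hW1]
    simp
  have h3 : Subgroup.zpowers x = ⊤ := by
    apply Subgroup.eq_top_of_card_eq
    rw [Nat.card_zpowers, hx, h2]
  rw [h3]
  exact Subgroup.mem_top a

/-! ### Elements of order five with ten moved points -/

section Five

variable {α : Type*} [Fintype α] [DecidableEq α]

theorem commute_apply {c z : Perm α} (hc : Commute c z) (w : α) : c (z w) = z (c w) := by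
  rw [← Perm.mul_apply, hc.eq, Perm.mul_apply]

theorem commute_moved {c z : Perm α} (hc : Commute c z) {w : α} (hw : z w ≠ w) : z (c w) ≠ c w := by
  rw [← commute_apply hc]
  exact fun h => hw (c.injective h)

/-- If `d` commutes with `z` and acts on a point as a power of `z`, then so do its powers. -/
theorem pow_apply_of_commute {d z : Perm α} (hd : Commute d z) {w : α} {s : ℤ}
    (h : (z ^ s) w = d w) (k : ℕ) : (d ^ k) w = (z ^ (s * k)) w := by
  induction k with
  | zero => simp
  | succ k ih =>
    rw [pow_succ', Perm.mul_apply, ih, ← Perm.mul_apply, (hd.zpow_right (s * k)).eq, Perm.mul_apply,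
      ← h, ← Perm.mul_apply, ← zpow_add]
    congr 2
    push_cast
    ring

/-- A permutation commuting with `z` of order five with ten moved points: its square preserves the
cycles of `z`. -/
theorem sameCycle_sq_of_commute {z c : Perm α} (hz : z ^ 5 = 1) (hs : z.support.card = 10)
    (hc : Commute c z) {w : α} (hw : z w ≠ w) : SameCycle z w ((c ^ 2) w) := by
  classical
  by_contra hcon
  have h01 : ¬ SameCycle z w (c w) := by
    rintro ⟨s, hs'⟩
    apply hcon
    have := pow_apply_of_commute hc hs' 2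
    exact ⟨s * (2 : ℕ), this.symm⟩
  have h12 : ¬ SameCycle z (c w) ((c ^ 2) w) := by
    rintro ⟨s, hs'⟩
    apply h01
    refine ⟨s, ?_⟩
    apply c.injective
    rw [← Perm.mul_apply c (z ^ s), (hc.zpow_right s).eq, Perm.mul_apply, hs', pow_two,
      Perm.mul_apply]
  let v : Fin 3 → α := fun i => (c ^ (i : ℕ)) w
  have hv : ∀ i, z (v i) ≠ v i := by
    intro i
    have hcz : Commute (c ^ (i : ℕ)) z := hc.pow_left _
    exact commute_moved hcz hw
  have hv0 : v 0 = w := rfl
  have hv1 : v 1 = c w := rfl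
  have hv2 : v 2 = (c ^ 2) w := rfl
  have hpair : ∀ i i' : Fin 3, i ≠ i' → ¬ SameCycle z (v i) (v i') := by
    intro i i' hne
    fin_cases i <;> fin_cases i' <;> first
      | exact absurd rfl hne
      | exact h01
      | exact hcon
      | exact h12
      | exact fun h => h01 h.symm
      | exact fun h => hcon h.symm
      | exact fun h => h12 h.symm
  let f : Fin 3 × Fin 5 → α := fun q => (z ^ (q.2 : ℕ)) (v q.1)
  have hf : Function.Injective f := by
    rintro ⟨i, j⟩ ⟨i', j'⟩ h
    have h' : (z ^ (j : ℕ)) (v i) = (z ^ (j' : ℕ)) (v i') := h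
    by_cases hi : i = i'
    · subst hi
      have := pow_apply_injective (by norm_num : Nat.Prime 5) hz (hv i) h'
      rw [this]
    · exfalso
      apply hpair i i' hi
      refine ⟨-(j' : ℤ) + (j : ℤ), ?_⟩
      rw [zpow_add, Perm.mul_apply, zpow_natCast, h', ← Perm.mul_apply, zpow_neg, zpow_natCast,
        inv_mul_cancel, Perm.one_apply]
  have hmem : ∀ q, f q ∈ z.support := by
    rintro ⟨i, j⟩
    rw [mem_support]
    have hcz : Commute (z ^ (j : ℕ)) z := (Commute.refl z).pow_left _
    exact commute_moved hcz (hv i)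
  have hcard := Finset.card_le_card_of_injOn (s := Finset.univ) (t := z.support) f
    (fun q _ => hmem q) hf.injOn
  rw [hs] at hcard
  simp at hcard

/-- The tenth power of a permutation commuting with `z` fixes the moved points of `z`. -/
theorem pow_ten_apply {z c : Perm α} (hz : z ^ 5 = 1) (hs : z.support.card = 10)
    (hc : Commute c z) {w : α} (hw : z w ≠ w) : (c ^ 10) w = w := by
  obtain ⟨s, hs'⟩ := sameCycle_sq_of_commute hz hs hc hw
  have h := pow_apply_of_commute (hc.pow_left 2) hs' 5
  have e : c ^ 10 = (c ^ 2) ^ 5 := by rw [← pow_mul]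
  rw [e, h]
  have e2 : z ^ (s * ((5 : ℕ) : ℤ)) = (z ^ 5) ^ s := by
    rw [mul_comm, zpow_mul]
    norm_cast
  rw [e2, hz, one_zpow, Perm.one_apply]

/-- **Three cycle from an element of order five with ten moved points and three fixed points.** -/
theorem exists_threeCycle_of_five {G : Subgroup (Perm α)} {z : Perm α}
    (hind : IndSym G z.supportᶜ) (hzG : z ∈ G) (hoz : orderOf z = 5)
    (hs : z.support.card = 10) (hcard : Fintype.card α = 13)
    (hL : ¬ 5 ^ 2 ∣ Nat.card (ptStab G z.supportᶜ)) : ∃ τ ∈ G, IsThreeCycle τ := by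
  classical
  have hz5 : z ^ 5 = 1 := by rw [← hoz]; exact pow_orderOf_eq_one z
  have hcardF : 2 < (z.supportᶜ).card := by
    rw [Finset.card_compl]; omega
  obtain ⟨a, ha, b, hb, c, hc, hab, hac, hbc⟩ := Finset.two_lt_card.1 hcardF
  have hzF : ∀ w ∈ z.supportᶜ, z w = w := fun w hw => by simpa using hw
  obtain ⟨c₀, hc₀, hcomm, hact⟩ := exists_commute_threeCycle hind hzG hzF
    (by norm_num : Nat.Prime 5) hoz hL ha hb hc
  set τ := (swap a b * swap a c) ^ 2 with hτ
  have hτ3 : IsThreeCycle τ := (isThreeCycle_swap_mul_swap_same hab hac hbc).isThreeCycle_sq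
  have hτF : ∀ w, z w ≠ w → τ w = w := by
    intro w hw
    have hwF : w ∉ z.supportᶜ := by simpa using hw
    have h1 : w ≠ a := fun h => hwF (h ▸ ha)
    have h2 : w ≠ b := fun h => hwF (h ▸ hb)
    have h3 : w ≠ c := fun h => hwF (h ▸ hc)
    rw [hτ, pow_two]
    simp only [Perm.mul_apply]
    rw [swap_apply_of_ne_of_ne h1 h3, swap_apply_of_ne_of_ne h1 h2, swap_apply_of_ne_of_ne h1 h3,
      swap_apply_of_ne_of_ne h1 h2]
  have hsw : ∀ u v : α, u ∈ z.supportᶜ → v ∈ z.supportᶜ → ∀ w ∈ z.supportᶜ,
      swap u v w ∈ z.supportᶜ := by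
    intro u v hu hv w hw
    rw [swap_apply_def]
    split_ifs <;> assumption
  have hτpres : ∀ w ∈ z.supportᶜ, τ w ∈ z.supportᶜ := by
    intro w hw
    rw [hτ, pow_two, Perm.mul_apply, Perm.mul_apply, Perm.mul_apply]
    exact hsw a b ha hb _ (hsw a c ha hc _ (hsw a b ha hb _ (hsw a c ha hc _ hw)))
  have hpowF : ∀ k : ℕ, ∀ w ∈ z.supportᶜ, (c₀ ^ k) w = (τ ^ k) w := by
    intro k
    induction k with
    | zero => intro w _; simp
    | succ k ih =>
      intro w hw
      rw [pow_succ, Perm.mul_apply, hact w hw, ih _ (hτpres w hw), pow_succ, Perm.mul_apply]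
  have hτ10 : τ ^ 10 = τ := by
    have h3 : τ ^ 3 = 1 := by rw [← hτ3.orderOf]; exact pow_orderOf_eq_one τ
    calc τ ^ 10 = τ ^ (3 * 3 + 1) := by norm_num
      _ = (τ ^ 3) ^ 3 * τ := by rw [pow_succ, pow_mul]
      _ = τ := by rw [h3]; simp
  have heq : τ = c₀ ^ 10 := by
    ext w
    by_cases hw : z w = w
    · rw [hpowF 10 w (by simpa using hw), hτ10]
    · rw [pow_ten_apply hz5 hs hcomm hw, hτF w hw]
  exact ⟨τ, heq ▸ G.pow_mem hc₀ 10, hτ3⟩

/-- **A five cycle from a commuting element outside `⟨z⟩`.** -/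
theorem exists_fiveCycle_of_commute {G : Subgroup (Perm α)} {z v : Perm α} (hzG : z ∈ G)
    (hvG : v ∈ G) (hz5 : z ^ 5 = 1) (hs : z.support.card = 10) (hc : Commute v z)
    (hv25 : v ^ 25 = 1) (hvF : ∀ w, z w = w → v w = w) (hv : v ∉ Subgroup.zpowers z) :
    ∃ ζ ∈ G, ζ.IsCycle ∧ ζ.support.card = 5 := by
  classical
  have hcom : ∀ w, z w ≠ w → ∃ s : ℤ, (z ^ s) w = v w := by
    intro w hw
    obtain ⟨s, hs'⟩ := sameCycle_sq_of_commute hz5 hs hc hw
    refine ⟨s * (13 : ℕ), ?_⟩
    have h := pow_apply_of_commute (hc.pow_left 2) hs' 13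
    rw [← h, ← pow_mul]
    have : v ^ (2 * 13) = v := by
      calc v ^ (2 * 13) = v ^ 25 * v := by rw [← pow_succ]
        _ = v := by rw [hv25, one_mul]
    rw [this]
  have hne : z.support.Nonempty := by
    rw [← Finset.card_pos]; omega
  obtain ⟨w₁, hw₁'⟩ := hne
  have hw₁ : z w₁ ≠ w₁ := by simpa using hw₁'
  obtain ⟨s₁, hs₁⟩ := hcom w₁ hw₁
  let τ : Perm α := v * z ^ (-s₁)
  have hτG : τ ∈ G := G.mul_mem hvG (G.zpow_mem hzG _)
  have hτc : Commute τ z := hc.mul_left ((Commute.refl z).zpow_left _)
  have hτ1 : τ ≠ 1 := by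
    intro h
    apply hv
    have : v = z ^ s₁ := by
      have h2 : v * z ^ (-s₁) = 1 := h
      rw [zpow_neg] at h2
      exact mul_inv_eq_one.1 h2
    rw [this]
    exact Subgroup.zpow_mem_zpowers z s₁
  -- action of `τ` on moved points of `z`
  have hτz : ∀ w, z w ≠ w → ∃ s : ℤ, (z ^ s) w = τ w := by
    intro w hw
    obtain ⟨s, hs'⟩ := hcom w hw
    refine ⟨-s₁ + s, ?_⟩
    show _ = v ((z ^ (-s₁)) w)
    rw [← Perm.mul_apply v, (hc.zpow_right _).eq, Perm.mul_apply, ← hs', ← Perm.mul_apply, ← zpow_add]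
  have hτfix : ∀ w, z w = w → τ w = w := by
    intro w hw
    show v ((z ^ (-s₁)) w) = w
    rw [zpow_apply_eq_self_of_apply_eq_self hw, hvF w hw]
  have hτ5 : τ ^ 5 = 1 := by
    ext w
    by_cases hw : z w = w
    · rw [Perm.one_apply]
      exact Perm.pow_apply_eq_self_of_apply_eq_self (hτfix w hw) 5
    · obtain ⟨s, hs'⟩ := hτz w hw
      rw [pow_apply_of_commute hτc hs' 5, Perm.one_apply]
      have e2 : z ^ (s * ((5 : ℕ) : ℤ)) = (z ^ 5) ^ s := by
        rw [mul_comm, zpow_mul]
        norm_cast
      rw [e2, hz5, one_zpow, Perm.one_apply]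
  have hoτ : orderOf τ = 5 := by
    haveI : Fact (Nat.Prime 5) := ⟨by norm_num⟩
    exact orderOf_eq_prime hτ5 hτ1
  -- `τ` fixes the cycle of `w₁`
  have hτw₁ : τ w₁ = w₁ := by
    show v ((z ^ (-s₁)) w₁) = w₁
    rw [← Perm.mul_apply v, (hc.zpow_right _).eq, Perm.mul_apply, ← hs₁, ← Perm.mul_apply,
      ← zpow_add]
    simp
  have hτorb : ∀ j : Fin 5, τ ((z ^ (j : ℕ)) w₁) = (z ^ (j : ℕ)) w₁ := by
    intro j
    rw [← Perm.mul_apply τ, (hτc.pow_right _).eq, Perm.mul_apply, hτw₁]
  -- the support of `τ` is small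
  have hsupp : τ.support.card ≤ 5 := by
    let O : Finset α := (Finset.univ : Finset (Fin 5)).image (fun j : Fin 5 => (z ^ (j : ℕ)) w₁)
    have hO : O.card = 5 := by
      rw [Finset.card_image_of_injective _ (pow_apply_injective (by norm_num) hz5 hw₁)]
      simp
    have hOsub : O ⊆ z.support := by
      intro w hw
      obtain ⟨j, -, rfl⟩ := Finset.mem_image.1 hw
      rw [mem_support]
      exact commute_moved ((Commute.refl z).pow_left _) hw₁
    have hsub : τ.support ⊆ z.support \ O := by
      intro w hw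
      rw [mem_support] at hw
      rw [Finset.mem_sdiff, mem_support]
      constructor
      · exact fun h => hw (hτfix w h)
      · intro hwO
        obtain ⟨j, -, rfl⟩ := Finset.mem_image.1 hwO
        exact hw (hτorb j)
    have := Finset.card_le_card hsub
    rw [Finset.card_sdiff_of_subset hOsub, hs, hO] at this
    omega
  rcases isCycle_or_large (by norm_num : Nat.Prime 5) hoτ with h | h
  · exact ⟨τ, hτG, h.1, h.2⟩
  · omega

/-- The first case: five divides the order. -/
theorem alt_of_five_dvd {G : Subgroup (Perm α)} (hcard : Fintype.card α = 13)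
    (hG : IsPreprimitive G α) (hmt : IsMultiplyPretransitive G α 3) (h5 : 5 ∣ Nat.card G) :
    alternatingGroup α ≤ G := by
  classical
  have hp5 : Nat.Prime 5 := by norm_num
  haveI : Fact (Nat.Prime 5) := ⟨hp5⟩
  obtain ⟨g, hg⟩ := exists_prime_orderOf_dvd_card' (G := G) 5 h5
  set z : Perm α := g.1 with hz
  have hzG : z ∈ G := g.2
  have hoz : orderOf z = 5 := by rw [hz, Subgroup.orderOf_coe]; exact hg
  have hz5 : z ^ 5 = 1 := by rw [← hoz]; exact pow_orderOf_eq_one z
  rcases isCycle_or_large hp5 hoz with ⟨hc, hs⟩ | hs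
  · exact alternatingGroup_le_of_prime_cycle hG hzG hc (by rw [hs]; exact hp5)
      (by rw [hs, hcard]; norm_num)
  -- exactly ten moved points
  have hs10 : z.support.card = 10 := by
    obtain ⟨n, hn⟩ := cycleType_prime_order (σ := z) (by rw [hoz]; exact hp5)
    have h1 := sum_cycleType z
    rw [hn, Multiset.sum_replicate, hoz] at h1
    have h2 : z.support.card ≤ 13 := hcard ▸ Finset.card_le_univ _
    simp only [smul_eq_mul] at h1
    omega
  have hF : (z.supportᶜ).card = 3 := by
    rw [Finset.card_compl, hcard, hs10]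
  have hind : IndSym G z.supportᶜ := indSym_of_mult hmt hF.le (by
    rw [Nat.card_eq_fintype_card, hcard]; omega)
  by_cases hL : 5 ^ 2 ∣ Nat.card (ptStab G z.supportᶜ)
  · -- a five cycle
    have hzF : ∀ w ∈ z.supportᶜ, z w = w := fun w hw => by simpa using hw
    let z' : ptStab G z.supportᶜ := ⟨z, hzG, hzF⟩
    have hoz' : orderOf z' = 5 := by rw [← Subgroup.orderOf_coe]; exact hoz
    have hH : Nat.card (Subgroup.zpowers z') = 5 ^ 1 := by
      rw [Nat.card_zpowers, hoz', pow_one]
    obtain ⟨K, hK, hHK⟩ := Sylow.exists_subgroup_card_pow_succ (n := 1) hL hH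
    have hnle : ¬ K ≤ Subgroup.zpowers z' := by
      intro hle
      have := Subgroup.card_le_of_le hle
      rw [hK, hH] at this
      norm_num at this
    obtain ⟨v, hvK, hvH⟩ := SetLike.not_le_iff_exists.1 hnle
    have hcomm : IsMulCommutative K := IsPGroup.isMulCommutative_of_card_eq_prime_sq hK
    have hz'K : z' ∈ K := hHK (Subgroup.mem_zpowers z')
    have hc : Commute v z' := by
      have h1 : (⟨v, hvK⟩ : K) * ⟨z', hz'K⟩ = ⟨z', hz'K⟩ * ⟨v, hvK⟩ :=
        hcomm.is_comm.comm _ _
      exact congrArg Subtype.val h1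
    have hv25 : v ^ 25 = 1 := by
      have h1 : (⟨v, hvK⟩ : K) ^ Nat.card K = 1 := pow_card_eq_one'
      rw [hK] at h1
      exact congrArg Subtype.val h1
    obtain ⟨ζ, hζG, hζc, hζs⟩ := exists_fiveCycle_of_commute (z := z) (v := v.1) hzG v.2.1 hz5 hs10
      (congrArg Subtype.val hc)
      (congrArg Subtype.val hv25)
      (fun w hw => v.2.2 w (by simpa using hw))
      (by
        intro hmem
        apply hvH
        obtain ⟨k, hk⟩ := Subgroup.mem_zpowers_iff.1 hmem
        refine Subgroup.mem_zpowers_iff.2 ⟨k, ?_⟩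
        apply Subtype.ext
        rw [← hk]
        rfl)
    exact alternatingGroup_le_of_prime_cycle hG hζG hζc (by rw [hζs]; exact hp5)
      (by rw [hζs, hcard]; norm_num)
  · obtain ⟨τ, hτ, hτ3⟩ := exists_threeCycle_of_five hind hzG hoz hs10 hcard hL
    exact alternatingGroup_le_of_isPreprimitive_of_isThreeCycle_mem hG hτ3 hτ

end Five

end Cfsg.Agent.Lib.GenCyclesThirteen
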