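import Mathlib
import Cfsg.Agent.Lib.GenCyclesThirteen

set_option autoImplicit false
set_option linter.style.haveILetI false
set_option linter.unusedSectionVars false
set_option linter.unusedVariables false

namespace Cfsg.Agent.Lib.GenCyclesThirteenB

open Equiv Equiv.Perm MulAction Cfsg.Agent.Lib.PrimeCycleJ Cfsg.Agent.Lib.GenCycles
open Cfsg.Agent.Lib.GenCyclesThirteen

variable {α : Type*} [Fintype α] [DecidableEq α]

/-- A power of a cycle with a fixed point in the support is trivial. -/
theorem zpow_eq_one_of_fix {x : Perm α} (hxc : x.IsCycle) {v : α} (hv : x v ≠ v) {e : ℤ}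
    (h : (x ^ e) v = v) : x ^ e = 1 := by
  ext w
  rw [Perm.one_apply]
  by_cases hw : x w = w
  · exact zpow_apply_eq_self_of_apply_eq_self hw e
  · obtain ⟨i, rfl⟩ := hxc.sameCycle hv hw
    rw [← Perm.mul_apply, ← zpow_add, add_comm, zpow_add, Perm.mul_apply, h]

/-- An involution-like element inverting an 11-cycle is odd. -/
theorem sign_of_inverting {x n : Perm α} (hxc : x.IsCycle) (hxs : x.support.card = 11)
    (hnF : ∀ w, x w = w → n w = w) (hinv : n * x * n⁻¹ = x⁻¹) : sign n = -1 := by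
  classical
  have hox : orderOf x = 11 := by rw [hxc.orderOf, hxs]
  have hx11 : x ^ 11 = 1 := by rw [← hox]; exact pow_orderOf_eq_one x
  have hnz : ∀ k : ℤ, n * x ^ k * n⁻¹ = x ^ (-k) := by
    intro k
    have := map_zpow (MulAut.conj n) x k
    simp only [MulAut.conj_apply] at this
    rw [this, hinv, inv_zpow, zpow_neg]
  have hnw : ∀ (k : ℤ) (w : α), n ((x ^ k) w) = (x ^ (-k)) (n w) := by
    intro k w
    rw [← hnz k]
    simp
  -- the square of `n` is trivial
  have hcomm : Commute (n ^ 2) x := by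
    show n ^ 2 * x = x * n ^ 2
    have h1 : n * x = x⁻¹ * n := by rw [← hinv]; group
    have h2 : n * x⁻¹ = x * n := by
      have := hnz (-1)
      simp only [zpow_neg, zpow_one, inv_inv] at this
      exact mul_inv_eq_iff_eq_mul.1 this
    rw [pow_two, mul_assoc, h1, ← mul_assoc, h2, mul_assoc]
  obtain ⟨t, ht⟩ := exists_zpow_of_commute hxc hcomm
  have hn2 : n ^ 2 = x ^ t := by
    ext w
    by_cases hw : x w = w
    · rw [pow_two, Perm.mul_apply, hnF w hw, hnF w hw, zpow_apply_eq_self_of_apply_eq_self hw t]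
    · exact ht w hw
  have hn2' : n ^ 2 = 1 := by
    have h1 : n * x ^ t * n⁻¹ = x ^ t := by
      rw [← hn2]; group
    rw [hnz t] at h1
    have h2 : x ^ (2 * t) = 1 := by
      have : x ^ (2 * t) = x ^ t * (x ^ (-t))⁻¹ := by
        rw [zpow_neg, inv_inv, ← zpow_add]; congr 1; ring
      rw [this, h1]; group
    have h3 : (11 : ℤ) ∣ 2 * t := by
      have := orderOf_dvd_iff_zpow_eq_one.2 h2
      rwa [hox] at this
    have h4 : (11 : ℤ) ∣ t := by
      have hc : IsCoprime (11 : ℤ) 2 := by norm_num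
      exact hc.dvd_of_dvd_mul_left h3
    rw [hn2]
    refine orderOf_dvd_iff_zpow_eq_one.1 ?_
    rw [hox]
    exact_mod_cast h4
  have hn1 : n ≠ 1 := by
    rintro rfl
    have h1 : x = x⁻¹ := by simpa using hinv
    have h2 : x ^ 2 = 1 := by
      rw [pow_two]
      nth_rewrite 1 [h1]
      simp
    have := orderOf_dvd_of_pow_eq_one h2
    rw [hox] at this
    omega
  have hon : orderOf n = 2 := by
    haveI : Fact (Nat.Prime 2) := ⟨Nat.prime_two⟩
    exact orderOf_eq_prime hn2' hn1
  -- the fixed point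
  have hne : x.support.Nonempty := by
    rw [← Finset.card_pos]; omega
  obtain ⟨w₀, hw₀'⟩ := hne
  have hw₀ : x w₀ ≠ w₀ := by simpa using hw₀'
  have hnm : ∀ w, x w ≠ w → x (n w) ≠ n w := by
    intro w hw h
    apply hw
    apply n.injective
    have h1 := hnw 1 w
    simp only [zpow_one, zpow_neg] at h1
    rw [h1]
    rw [Perm.inv_eq_iff_eq]
    exact h.symm
  obtain ⟨c, hc⟩ := hxc.sameCycle hw₀ (hnm w₀ hw₀)
  let u : α := (x ^ (6 * c)) w₀
  have hxu : x u ≠ u := by
    have hcc : Commute (x ^ (6 * c)) x := (Commute.refl x).zpow_left _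
    exact commute_moved hcc hw₀
  have hnu : n u = u := by
    show n ((x ^ (6 * c)) w₀) = (x ^ (6 * c)) w₀
    rw [hnw, ← hc, ← Perm.mul_apply, ← zpow_add]
    have e1 : x ^ (-(6 * c) + c) = x ^ (6 * c) * (x ^ (11 : ℕ)) ^ (-c) := by
      rw [← zpow_natCast, ← zpow_mul, ← zpow_add]
      congr 1
      push_cast
      ring
    rw [e1, hx11, one_zpow, mul_one]
  have huniq : ∀ w, x w ≠ w → n w = w → w = u := by
    intro w hw hnww
    obtain ⟨j, hj⟩ := hxc.sameCycle hxu hw
    -- normalise `j`
    let j' : ℕ := (j % 11).toNat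
    have hj'lt : j' < 11 := by
      have h1 := Int.emod_lt_of_pos j (by norm_num : (0 : ℤ) < 11)
      have h2 := Int.emod_nonneg j (by norm_num : (11 : ℤ) ≠ 0)
      omega
    have hj'eq : x ^ j = x ^ j' := by
      have h2 := Int.emod_nonneg j (by norm_num : (11 : ℤ) ≠ 0)
      have h3 : ((j' : ℕ) : ℤ) = j % 11 := Int.toNat_of_nonneg h2
      rw [← zpow_natCast, h3]
      have h4 := zpow_mod_orderOf x j
      rw [hox] at h4
      exact_mod_cast h4.symm
    rw [hj'eq] at hj
    by_contra hne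
    have hj0 : j' ≠ 0 := by
      intro h0
      rw [h0] at hj
      exact hne (by simpa using hj.symm)
    have h1 : n w = (x ^ (-(j' : ℤ))) u := by
      rw [← hj, ← zpow_natCast, hnw, hnu]
    have h2 : x ^ (-(j' : ℤ)) = x ^ (11 - j') := by
      rw [← zpow_natCast, Nat.cast_sub hj'lt.le]
      have : x ^ (((11 : ℕ) : ℤ) - (j' : ℤ)) = (x ^ (11 : ℕ)) * x ^ (-(j' : ℤ)) := by
        rw [sub_eq_add_neg, zpow_add, zpow_natCast]
      rw [this, hx11, one_mul]
    have h3 : (x ^ (11 - j')) u = (x ^ j') u := by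
      rw [← h2, ← h1, hnww, hj]
    have hinj := pow_apply_injective (by norm_num : Nat.Prime 11) hx11 hxu
    have h4 := @hinj ⟨11 - j', by omega⟩ ⟨j', hj'lt⟩ h3
    have h5 := congrArg Fin.val h4
    simp only at h5
    omega
  have hsupp : n.support = x.support.erase u := by
    ext w
    rw [Finset.mem_erase, mem_support, mem_support]
    constructor
    · intro hw
      refine ⟨fun h => ?_, fun h => hw (hnF w h)⟩
      rw [h] at hw
      exact hw hnu
    · rintro ⟨h1, h2⟩ h3
      exact h1 (huniq w h2 h3)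
  have hcard : n.support.card = 10 := by
    rw [hsupp, Finset.card_erase_of_mem (by simpa using hxu), hxs]
  obtain ⟨k, hk⟩ := cycleType_prime_order (σ := n) (by rw [hon]; exact Nat.prime_two)
  have h1 := sum_cycleType n
  rw [hk, Multiset.sum_replicate, hon, hcard] at h1
  simp only [smul_eq_mul] at h1
  have hk4 : k = 4 := by omega
  rw [sign_of_cycleType, hk, hon, Multiset.sum_replicate, Multiset.card_replicate, hk4]
  decide

/-- Squares of units mod 11. -/
theorem zmod11_sq : ∀ a : ZMod 11, a ^ 2 = 1 → a = 1 ∨ a = -1 := by decide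

/-- Normalizing elements fixing the fixed points of an 11-cycle centralize it, in an even group of
order prime to five. -/
theorem commute_of_normalize {G : Subgroup (Perm α)} (hGalt : G ≤ alternatingGroup α)
    (h5 : ¬ 5 ∣ Nat.card G) {x n : Perm α} (hxc : x.IsCycle) (hxs : x.support.card = 11)
    (hnG : n ∈ G) (hnF : ∀ w, x w = w → n w = w) (hnorm : n * x * n⁻¹ ∈ Subgroup.zpowers x) :
    Commute n x := by
  classical
  haveI : Fact (Nat.Prime 11) := ⟨by norm_num⟩
  have hox : orderOf x = 11 := by rw [hxc.orderOf, hxs]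
  obtain ⟨e, he⟩ := Subgroup.mem_zpowers_iff.1 hnorm
  -- powers
  have hpow : ∀ k : ℕ, n ^ k * x * (n ^ k)⁻¹ = x ^ (e ^ k) := by
    intro k
    induction k with
    | zero => simp
    | succ k ih =>
      have h1 : n ^ (k + 1) * x * (n ^ (k + 1))⁻¹ = n ^ k * (n * x * n⁻¹) * (n ^ k)⁻¹ := by
        rw [pow_succ]; group
      rw [h1, ← he]
      have h2 : n ^ k * x ^ e * (n ^ k)⁻¹ = (n ^ k * x * (n ^ k)⁻¹) ^ e := by
        rw [conj_zpow]
      rw [h2, ih, ← zpow_mul, pow_succ]
  have hiff : ∀ a b : ℤ, x ^ a = x ^ b ↔ (a : ZMod 11) = (b : ZMod 11) := by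
    intro a b
    rw [zpow_eq_zpow_iff_modEq, hox, ZMod.intCast_eq_intCast_iff]
  set o := orderOf n with ho
  have hoG : o ∣ Nat.card G := by
    have h1 : orderOf (⟨n, hnG⟩ : G) = o := Subgroup.orderOf_mk n hnG
    rw [← h1]
    exact orderOf_dvd_natCard _
  have ho5 : ¬ 5 ∣ o := fun h => h5 (h.trans hoG)
  have heo : ((e : ℤ) : ZMod 11) ^ o = 1 := by
    have h1 := hpow o
    rw [ho, pow_orderOf_eq_one] at h1
    simp only [one_mul, inv_one, mul_one] at h1
    have h2 : x ^ (1 : ℤ) = x ^ (e ^ orderOf n) := by rw [zpow_one]; exact h1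
    have h3 := (hiff _ _).1 h2
    push_cast at h3
    exact h3.symm
  have hone : ((e : ℤ) : ZMod 11) ≠ 0 := by
    intro h0
    rw [h0, zero_pow (orderOf_pos n).ne'] at heo
    exact zero_ne_one heo
  have he10 : ((e : ℤ) : ZMod 11) ^ 10 = 1 := ZMod.pow_card_sub_one_eq_one hone
  have hg := pow_gcd_eq_one.2 ⟨heo, he10⟩
  have hgd : Nat.gcd o 10 ∣ 2 := by
    have h1 : Nat.Coprime (Nat.gcd o 10) 5 := by
      have h2 : Nat.Coprime 5 o := (Nat.Prime.coprime_iff_not_dvd (by norm_num)).2 ho5
      exact (Nat.Coprime.coprime_dvd_right (Nat.gcd_dvd_left o 10) h2).symm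
    have h3 : Nat.gcd o 10 ∣ 2 * 5 := Nat.gcd_dvd_right o 10
    exact h1.dvd_of_dvd_mul_right h3
  have he2 : ((e : ℤ) : ZMod 11) ^ 2 = 1 := by
    obtain ⟨m, hm⟩ := hgd
    rw [hm, pow_mul, hg, one_pow]
  rcases zmod11_sq _ he2 with h | h
  · have h1 : x ^ e = x := by
      have := (hiff e 1).2 (by simpa using h)
      simpa using this
    show n * x = x * n
    rw [h1] at he
    exact mul_inv_eq_iff_eq_mul.1 he.symm
  · exfalso
    have h1 : x ^ e = x⁻¹ := by
      have := (hiff e (-1)).2 (by simpa using h)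
      simpa using this
    have h2 : sign n = -1 := sign_of_inverting hxc hxs hnF (by rw [← he, h1])
    have h3 : sign n = 1 := mem_alternatingGroup.1 (hGalt hnG)
    rw [h2] at h3
    exact absurd h3 (by decide)

/-- A group of permutations with an 11-cycle: if the order is prime to five then the stabilizer of
the two remaining points is generated by the cycle. -/
theorem mem_zpowers_of_fix {G : Subgroup (Perm α)} (hcard : Fintype.card α = 13)
    (hGalt : G ≤ alternatingGroup α)
    (h5 : ¬ 5 ∣ Nat.card G) {x n : Perm α} (hx : x ∈ G) (hxc : x.IsCycle)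
    (hxs : x.support.card = 11)
    (hnG : n ∈ G) (hnF : ∀ w, x w = w → n w = w) : n ∈ Subgroup.zpowers x := by
  classical
  have hp11 : Nat.Prime 11 := by norm_num
  set s : Set α := ((x.support : Set α)ᶜ) with hs
  have hmems : ∀ w, w ∈ s ↔ x w = w := by
    intro w
    simp [hs]
  haveI hpre : IsPretransitive (fixingSubgroup G s) (SubMulAction.ofFixingSubgroup G s) :=
    isPretransitive_of_isCycle_mem hxc hx
  have hcardX : Nat.card (SubMulAction.ofFixingSubgroup G s) = 11 := by
    rw [Nat.card_eq_fintype_card, Fintype.card_subtype, ← hxs]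
    apply congr_arg
    ext w
    simp [SubMulAction.mem_ofFixingSubgroup_iff, hs]
  haveI hprim : IsPreprimitive (fixingSubgroup G s) (SubMulAction.ofFixingSubgroup G s) := by
    apply IsPreprimitive.of_prime_card
    rw [hcardX]
    exact hp11
  have hfaith : FaithfulSMul (fixingSubgroup G s) (SubMulAction.ofFixingSubgroup G s) := by
    refine ⟨fun {a b} hab => ?_⟩
    apply Subtype.ext
    apply Subtype.ext
    ext w
    by_cases hw : w ∈ s
    · have h1 := (mem_fixingSubgroup_iff G).1 a.2 w hw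
      have h2 := (mem_fixingSubgroup_iff G).1 b.2 w hw
      exact h1.trans h2.symm
    · have hw' : w ∈ SubMulAction.ofFixingSubgroup G s :=
        (SubMulAction.mem_ofFixingSubgroup_iff G).2 hw
      have := hab ⟨w, hw'⟩
      exact congrArg Subtype.val this
  -- the elements
  have hmemF : ∀ g : Perm α, (hg : g ∈ G) → (∀ w, x w = w → g w = w) →
      (⟨g, hg⟩ : G) ∈ fixingSubgroup G s := by
    intro g hg hf
    rw [mem_fixingSubgroup_iff]
    intro w hw
    exact hf w ((hmems w).1 hw)
  have hmemF' : ∀ g : fixingSubgroup G s, ∀ w, x w = w → g.1.1 w = w := by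
    intro g w hw
    exact (mem_fixingSubgroup_iff G).1 g.2 w ((hmems w).2 hw)
  let x' : fixingSubgroup G s := ⟨⟨x, hx⟩, hmemF x hx (fun w hw => hw)⟩
  let n' : fixingSubgroup G s := ⟨⟨n, hnG⟩, hmemF n hnG hnF⟩
  have hox : orderOf x = 11 := by rw [hxc.orderOf, hxs]
  have hox' : orderOf x' = 11 := by
    rw [← hox, ← Subgroup.orderOf_coe x', ← Subgroup.orderOf_coe (x' : G)]
  have hA : ¬ 11 ^ 2 ∣ Nat.card (fixingSubgroup G s) := by
    intro h
    have h1 := Subgroup.card_dvd_of_injective
      (MulAction.toPermHom (fixingSubgroup G s) (SubMulAction.ofFixingSubgroup G s))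
      (fun a b hab => eq_of_smul_eq_smul (α := SubMulAction.ofFixingSubgroup G s) (fun p =>
        congrArg (fun e : Perm _ => e p) hab))
    rw [Nat.card_perm, hcardX] at h1
    exact not_sq_dvd_factorial hp11 (h.trans h1)
  have hmap : ∀ g : fixingSubgroup G s, ∀ k : ℤ, ((g ^ k : fixingSubgroup G s) : G).1 = g.1.1 ^ k := by
    intro g k
    rfl
  have hn' : ∀ a : fixingSubgroup G s, a * x' * a⁻¹ ∈ Subgroup.zpowers x' → Commute a x' := by
    intro a ha
    obtain ⟨k, hk⟩ := Subgroup.mem_zpowers_iff.1 ha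
    have h1 : a.1.1 * x * a.1.1⁻¹ ∈ Subgroup.zpowers x := by
      refine Subgroup.mem_zpowers_iff.2 ⟨k, ?_⟩
      have := congrArg (fun q : fixingSubgroup G s => q.1.1) hk
      exact this
    have h2 := commute_of_normalize hGalt h5 hxc hxs a.1.2 (hmemF' a) h1
    apply Subtype.ext
    apply Subtype.ext
    exact h2
  have hmem := mem_zpowers_of_prim hp11 hcardX hA hox' hn' n'
  obtain ⟨k, hk⟩ := Subgroup.mem_zpowers_iff.1 hmem
  refine Subgroup.mem_zpowers_iff.2 ⟨k, ?_⟩
  exact congrArg (fun q : fixingSubgroup G s => q.1.1) hk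

theorem exists_apply_of_mult {G : Subgroup (Perm α)} {F : Finset α} {n : ℕ}
    (h : IsMultiplyPretransitive G α n) (hn : F.card ≤ n) (hn' : n ≤ Nat.card α) (π : Perm α) :
    ∃ g ∈ G, ∀ w ∈ F, g w = π w := by
  haveI := h
  haveI hk : IsMultiplyPretransitive G α F.card := isMultiplyPretransitive_of_le hn hn'
  let e : Fin F.card ≃ ↥F := (Finset.equivFinOfCardEq rfl).symm
  let u : Fin F.card ↪ α := ⟨fun i => (e i : α), fun i j hij => e.injective (Subtype.ext hij)⟩
  let u' : Fin F.card ↪ α := ⟨fun i => π (e i : α), fun i j hij =>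
    e.injective (Subtype.ext (π.injective hij))⟩
  obtain ⟨g, hg⟩ := (isMultiplyPretransitive_iff.1 hk) u u'
  refine ⟨g, g.2, fun w hw => ?_⟩
  have := DFunLike.congr_fun hg (e.symm ⟨w, hw⟩)
  have h1 : (g : Perm α) (e (e.symm ⟨w, hw⟩) : α) = π (e (e.symm ⟨w, hw⟩) : α) := this
  rwa [Equiv.apply_symm_apply] at h1

theorem commute_of_pow_commute {A : Type*} [Group A] {g h : A} {p k : ℕ} (hp : p.Prime)
    (hg : g ^ p = 1) (hk0 : 0 < k) (hk : k < p) (hc : Commute (g ^ k) h) : Commute g h := by
  have hco : Nat.Coprime k p := Nat.Coprime.symm ((Nat.Prime.coprime_iff_not_dvd hp).2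
    (fun h => absurd (Nat.le_of_dvd hk0 h) (by omega)))
  obtain ⟨u, hu⟩ := Nat.exists_mul_mod_eq_one_of_coprime hco hp.one_lt
  have h1 : g ^ (k * u) = g := by
    rw [pow_eq_pow_mod (k * u) hg, hu.2, pow_one]
  rw [← h1, pow_mul]
  exact hc.pow_left u

/-- **The sharply 3-transitive case is impossible.** -/
theorem no_sharp {G : Subgroup (Perm α)} (hcard : Fintype.card α = 13)
    (hmt : IsMultiplyPretransitive G α 3) {x : Perm α} (hx : x ∈ G) (hxc : x.IsCycle)
    (hxs : x.support.card = 11)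
    (hK : ∀ n ∈ G, (∀ w, x w = w → n w = w) → n ∈ Subgroup.zpowers x) : False := by
  classical
  have hp11 : Nat.Prime 11 := by norm_num
  have hox : orderOf x = 11 := by rw [hxc.orderOf, hxs]
  have hx11 : x ^ 11 = 1 := by rw [← hox]; exact pow_orderOf_eq_one x
  have hF : x.supportᶜ.card = 2 := by rw [Finset.card_compl, hcard, hxs]
  obtain ⟨a, b, hab, hFeq⟩ := Finset.card_eq_two.1 hF
  have hfix : ∀ w, x w = w ↔ w = a ∨ w = b := by
    intro w
    have h1 : w ∈ x.supportᶜ ↔ x w = w := by simp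
    rw [← h1, hFeq]
    simp
  have hxa : x a = a := (hfix a).2 (Or.inl rfl)
  have hxb : x b = b := (hfix b).2 (Or.inr rfl)
  let L : Subgroup (Perm α) := ptStab G {a}
  have haL : ∀ g : L, g.1 a = a := fun g => g.2.2 a (by simp)
  let x' : L := ⟨x, hx, fun w hw => by
    rw [Finset.mem_singleton] at hw
    rw [hw]
    exact hxa⟩
  have hox' : orderOf x' = 11 := by rw [← Subgroup.orderOf_coe]; exact hox
  have hzp : ∀ (g : L) (k : ℤ), g.1 = x ^ k → g = x' ^ k := by
    intro g k h
    apply Subtype.ext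
    rw [h]
    rfl
  -- normalizing elements of `L` lie in the cyclic group
  have hN : ∀ n : L, n * x' * n⁻¹ ∈ Subgroup.zpowers x' → n.1 ∈ Subgroup.zpowers x := by
    intro n hn
    obtain ⟨e, he⟩ := Subgroup.mem_zpowers_iff.1 hn
    have he' : x ^ e = n.1 * x * n.1⁻¹ := congrArg Subtype.val he
    have hx1 : x ^ e ≠ 1 := by
      intro h
      rw [h] at he'
      have h2 : x = 1 := by
        have h3 : n.1⁻¹ * (n.1 * x * n.1⁻¹) * n.1 = x := by group
        rw [← he'] at h3
        simpa using h3.symm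
      rw [h2, orderOf_one] at hox
      omega
    have hp : ∀ w, x w = w → x (n.1 w) = n.1 w := by
      intro w hw
      by_contra hne
      apply hx1
      apply zpow_eq_one_of_fix hxc hne
      rw [he']
      simp [hw]
    have hnb : n.1 b = b := by
      rcases (hfix _).1 (hp b hxb) with h | h
      · exfalso
        apply hab
        apply n.1.injective
        rw [haL n, h]
      · exact h
    apply hK n.1 n.2.1
    intro w hw
    rcases (hfix w).1 hw with rfl | rfl
    · exact haL n
    · exact hnb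
  have hcomm : ∀ n : L, n * x' * n⁻¹ ∈ Subgroup.zpowers x' → Commute n x' := by
    intro n hn
    obtain ⟨k, hk⟩ := Subgroup.mem_zpowers_iff.1 (hN n hn)
    have h1 := hzp n k hk.symm
    rw [h1]
    exact (Commute.refl x').zpow_left k
  -- the order of `L`
  have hstab : stabilizer L b = Subgroup.zpowers x' := by
    ext g
    constructor
    · intro hg
      have hgb : g.1 b = b := hg
      have h1 : g.1 ∈ Subgroup.zpowers x := by
        apply hK g.1 g.2.1
        intro w hw
        rcases (hfix w).1 hw with rfl | rfl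
        · exact haL g
        · exact hgb
      obtain ⟨k, hk⟩ := Subgroup.mem_zpowers_iff.1 h1
      exact Subgroup.mem_zpowers_iff.2 ⟨k, (hzp g k hk.symm).symm⟩
    · intro hg
      obtain ⟨k, rfl⟩ := Subgroup.mem_zpowers_iff.1 hg
      show (x ^ k) b = b
      exact zpow_apply_eq_self_of_apply_eq_self hxb k
  have horbit : orbit L b = ({a} : Set α)ᶜ := by
    ext c
    constructor
    · rintro ⟨g, rfl⟩ h
      rw [Set.mem_singleton_iff] at h
      apply hab
      apply g.1.injective
      rw [haL g]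
      exact h.symm
    · intro hc
      rw [Set.mem_compl_iff, Set.mem_singleton_iff] at hc
      have hac : a ≠ c := fun h => hc h.symm
      obtain ⟨g, hg, hgw⟩ := exists_apply_of_mult (F := {a, b}) (π := swap b c) hmt
        ((Finset.card_le_two).trans (by norm_num))
        (by rw [Nat.card_eq_fintype_card, hcard]; norm_num)
      refine ⟨⟨g, hg, fun w hw => ?_⟩, ?_⟩
      · rw [Finset.mem_singleton] at hw
        rw [hw, hgw a (by simp), swap_apply_of_ne_of_ne hab hac]
      · show g b = c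
        rw [hgw b (by simp), swap_apply_left]
  have hcardL : Nat.card L = 132 := by
    have h1 := (stabilizer L b).card_mul_index
    rw [index_stabilizer, hstab, horbit, Nat.card_zpowers, hox', Set.ncard_compl, Set.ncard_singleton,
      Nat.card_eq_fintype_card, hcard] at h1
    rw [← h1]
  -- Burnside
  obtain ⟨W, hWn, hWc⟩ := exists_normal_complement hp11 (by rw [hcardL]; norm_num) hox' hcomm
  have hcardW : Nat.card W = 12 := by
    have h1 := hWc.card_mul_card
    rw [Nat.card_zpowers, hox', hcardL] at h1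
    omega
  have hdisj : ∀ g : L, g ∈ W → g ∈ Subgroup.zpowers x' → g = 1 :=
    fun g h1 h2 => Subgroup.disjoint_def.1 hWc.disjoint h1 h2
  haveI : Fact (Nat.Prime 2) := ⟨Nat.prime_two⟩
  haveI : Fact (Nat.Prime 3) := ⟨by norm_num⟩
  obtain ⟨u, hu⟩ := exists_prime_orderOf_dvd_card' (G := W) 2 (by rw [hcardW]; norm_num)
  obtain ⟨v, hv⟩ := exists_prime_orderOf_dvd_card' (G := W) 3 (by rw [hcardW]; norm_num)
  have hu1 : u.1 ≠ 1 := by
    intro h
    have h2 : u = 1 := Subtype.ext h
    rw [h2, orderOf_one] at hu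
    omega
  have hu2 : u ^ 2 = 1 := by rw [← hu]; exact pow_orderOf_eq_one u
  have hv2 : v ^ 2 ≠ 1 := by
    intro h
    have := orderOf_dvd_of_pow_eq_one h
    rw [hv] at this
    omega
  let f : Fin 11 → W := fun i =>
    ⟨x' ^ (i : ℕ) * u.1 * (x' ^ (i : ℕ))⁻¹, hWn.conj_mem _ u.2 _⟩
  have hx'11 : x' ^ 11 = 1 := by rw [← hox']; exact pow_orderOf_eq_one x'
  have hucomm : ¬ Commute x' u.1 := by
    intro hc
    apply hu1
    apply hdisj _ u.2
    have h1 : u.1 * x' * u.1⁻¹ = x' := by
      rw [hc.symm.eq]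
      simp
    have h2 := hN u.1 (by rw [h1]; exact Subgroup.mem_zpowers x')
    obtain ⟨k, hk⟩ := Subgroup.mem_zpowers_iff.1 h2
    exact Subgroup.mem_zpowers_iff.2 ⟨k, (hzp u.1 k hk.symm).symm⟩
  have hfinj : Function.Injective f := by
    intro i j hij
    by_contra hne
    have hne' : (i : ℕ) ≠ j := fun h => hne (Fin.ext h)
    have h1 : x' ^ (i : ℕ) * u.1 * (x' ^ (i : ℕ))⁻¹ = x' ^ (j : ℕ) * u.1 * (x' ^ (j : ℕ))⁻¹ :=
      congrArg Subtype.val hij
    wlog hlt : (i : ℕ) < j generalizing i j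
    · exact this hij.symm (Ne.symm hne) (Ne.symm hne') h1.symm (by omega)
    apply hucomm
    apply commute_of_pow_commute hp11 hx'11 (k := (j : ℕ) - i) (by omega)
      (by have := j.2; omega)
    have e1 : x' ^ (j : ℕ) = x' ^ (i : ℕ) * x' ^ ((j : ℕ) - i) := by
      rw [← pow_add, Nat.add_sub_cancel' hlt.le]
    rw [e1] at h1
    have h2 : u.1 = x' ^ ((j : ℕ) - i) * u.1 * (x' ^ ((j : ℕ) - i))⁻¹ := by
      have h3 : (x' ^ (i : ℕ))⁻¹ * (x' ^ (i : ℕ) * u.1 * (x' ^ (i : ℕ))⁻¹) * x' ^ (i : ℕ) = u.1 := by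
        group
      rw [h1] at h3
      exact h3.symm.trans (by group)
    show x' ^ ((j : ℕ) - i) * u.1 = u.1 * x' ^ ((j : ℕ) - i)
    exact (eq_mul_inv_iff_mul_eq.1 h2).symm
  have hf2 : ∀ i, (f i) ^ 2 = 1 := by
    intro i
    apply Subtype.ext
    show (x' ^ (i : ℕ) * u.1 * (x' ^ (i : ℕ))⁻¹) ^ 2 = 1
    rw [conj_pow]
    have : u.1 ^ 2 = 1 := congrArg Subtype.val hu2
    rw [this]
    simp
  have hf1 : ∀ i, f i ≠ 1 := by
    intro i h
    have h1 : x' ^ (i : ℕ) * u.1 * (x' ^ (i : ℕ))⁻¹ = 1 := congrArg Subtype.val h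
    apply hu1
    have h3 : (x' ^ (i : ℕ))⁻¹ * (x' ^ (i : ℕ) * u.1 * (x' ^ (i : ℕ))⁻¹) * x' ^ (i : ℕ) = u.1 := by
      group
    rw [h1] at h3
    rw [← h3]
    group
  have hfv : ∀ i, f i ≠ v := by
    intro i h
    apply hv2
    rw [← h, hf2]
  haveI : Fintype W := Fintype.ofFinite W
  have hcard1 : ((Finset.univ : Finset (Fin 11)).image f).card = 11 := by
    rw [Finset.card_image_of_injective _ hfinj]
    simp
  have hv1 : v ≠ 1 := by
    intro h
    apply hv2
    rw [h, one_pow]
  have hT : (insert 1 (insert v ((Finset.univ : Finset (Fin 11)).image f))).card = 13 := by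
    rw [Finset.card_insert_of_notMem, Finset.card_insert_of_notMem, hcard1]
    · intro h
      obtain ⟨i, -, hi⟩ := Finset.mem_image.1 h
      exact hfv i hi
    · intro h
      rcases Finset.mem_insert.1 h with h | h
      · exact hv1 h.symm
      · obtain ⟨i, -, hi⟩ := Finset.mem_image.1 h
        exact hf1 i hi
  have hle := Finset.card_le_univ (insert 1 (insert v ((Finset.univ : Finset (Fin 11)).image f)))
  rw [hT, ← Nat.card_eq_fintype_card, hcardW] at hle
  omega

/-- **Degree 13**: an even primitive group of degree 13 containing an 11-cycle is `A₁₃`. -/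
theorem alternatingGroup_le_thirteen (hcard : Fintype.card α = 13) {G : Subgroup (Perm α)}
    (hG : IsPreprimitive G α) (hGalt : G ≤ alternatingGroup α) {x : Perm α}
    (hx : x ∈ G) (hxc : x.IsCycle) (hxs : x.support.card = 11) : alternatingGroup α ≤ G := by
  have hmt : IsMultiplyPretransitive G α 3 := by
    have := isMultiplyPretransitive_of_cycle hG hx hxc (by rw [hxs]; norm_num)
      (by rw [hxs, hcard]; norm_num)
    rwa [hcard, hxs] at this
  by_cases h5 : 5 ∣ Nat.card G
  · exact alt_of_five_dvd hcard hG hmt h5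
  · exact (no_sharp hcard hmt hx hxc hxs
      (fun n hn hf => mem_zpowers_of_fix hcard hGalt h5 hx hxc hxs hn hf)).elim

end Cfsg.Agent.Lib.GenCyclesThirteenB
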