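import Mathlib
import Cfsg.Prelude.Def_Transfer
import Cfsg.Agent.Lib.Frat
import Cfsg.Agent.Lib.DihedralIso
import Cfsg.Agent.Lib.CyclicMax

/-!
# Direct decompositions `E × A` of generalized extraspecial groups

A finite `p`-group generated modulo its elementary abelian centre by two elements `a`, `b` of order `p`
with central nontrivial commutator is `E × A`, with `E = ⟨a, b⟩` (dihedral of order `8` for `p = 2`, extraspecial of
order `p³` and exponent `p` for `p` odd) and `A` elementary abelian.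
-/

set_option autoImplicit false
set_option linter.style.haveILetI false

namespace Cfsg.Agent.Lib.GenExtraDecomp

open scoped commutatorElement

universe u

variable {p : ℕ} [hp : Fact p.Prime]

section Gens

variable {G : Type*} [Group G] {a b : G}

theorem conj_central_mul (hcc : ⁅a, b⁆ ∈ Subgroup.center G) (g x : G) (i : ℤ) :
    g * (⁅a, b⁆ ^ i * x) * g⁻¹ = ⁅a, b⁆ ^ i * (g * x * g⁻¹) := by
  have h1 : g * ⁅a, b⁆ ^ i = ⁅a, b⁆ ^ i * g := Subgroup.mem_center_iff.mp ((Subgroup.center G).zpow_mem hcc i) g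
  rw [← mul_assoc g, h1]
  group

theorem zpow_conj_of_central (hcc : ⁅a, b⁆ ∈ Subgroup.center G) (i : ℤ) :
    a ^ i * b * (a ^ i)⁻¹ = ⁅a, b⁆ ^ i * b := by
  have h1 : a * b * a⁻¹ = ⁅a, b⁆ ^ (1 : ℤ) * b := by
    rw [zpow_one, commutatorElement_def]
    group
  have h3 : a⁻¹ * b * a = ⁅a, b⁆ ^ (-1 : ℤ) * b := by
    have h4 := conj_central_mul hcc a⁻¹ b (1 : ℤ)
    rw [inv_inv, ← h1] at h4
    have h5 : a⁻¹ * (a * b * a⁻¹) * a = b := by group
    rw [h5, zpow_one] at h4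
    rw [zpow_neg_one]
    exact eq_inv_mul_iff_mul_eq.mpr h4.symm
  induction i using Int.induction_on with
  | zero => simp
  | succ i ih =>
    rw [zpow_add_one, mul_inv_rev, show a ^ (i : ℤ) * a * b * (a⁻¹ * (a ^ (i : ℤ))⁻¹) =
      a ^ (i : ℤ) * (a * b * a⁻¹) * (a ^ (i : ℤ))⁻¹ by group, h1, conj_central_mul hcc, ih, ← mul_assoc, ← zpow_add,
      add_comm]
  | pred i ih =>
    rw [zpow_sub_one, mul_inv_rev, inv_inv, show a ^ (-(i : ℤ)) * a⁻¹ * b * (a * (a ^ (-(i : ℤ)))⁻¹) =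
      a ^ (-(i : ℤ)) * (a⁻¹ * b * a) * (a ^ (-(i : ℤ)))⁻¹ by group, h3, conj_central_mul hcc, ih, ← mul_assoc, ← zpow_add,
      add_comm, sub_eq_add_neg]

theorem zpow_conj_zpow_of_central (hcc : ⁅a, b⁆ ∈ Subgroup.center G) (i j : ℤ) :
    a ^ i * b ^ j * (a ^ i)⁻¹ = ⁅a, b⁆ ^ (i * j) * b ^ j := by
  have hb : Commute (⁅a, b⁆ ^ i) b := (Subgroup.mem_center_iff.mp ((Subgroup.center G).zpow_mem hcc i) b).symm
  rw [← conj_zpow, zpow_conj_of_central hcc, hb.mul_zpow, zpow_mul]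

theorem conj_mul_central {x w y : G} (h : w * y = y * w) : (x * w) * y * (x * w)⁻¹ = x * y * x⁻¹ := by
  rw [mul_inv_rev, mul_assoc x w y, h]
  group

/-- A central element in the normal form has trivial exponents. -/
theorem comm_formula (hcc : ⁅a, b⁆ ∈ Subgroup.center G) (i j k : ℤ) :
    (a ^ i * b ^ j * ⁅a, b⁆ ^ k) * b * (a ^ i * b ^ j * ⁅a, b⁆ ^ k)⁻¹ = ⁅a, b⁆ ^ i * b := by
  have hk : ∀ g : G, g * ⁅a, b⁆ ^ k = ⁅a, b⁆ ^ k * g := Subgroup.mem_center_iff.mp ((Subgroup.center G).zpow_mem hcc k)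
  rw [conj_mul_central (hk b).symm, conj_mul_central ((Commute.refl b).zpow_left j).eq, zpow_conj_of_central hcc]

theorem comm_formula' (hcc : ⁅a, b⁆ ∈ Subgroup.center G) (i j k : ℤ) :
    (a ^ i * b ^ j * ⁅a, b⁆ ^ k) * a * (a ^ i * b ^ j * ⁅a, b⁆ ^ k)⁻¹ = ⁅a, b⁆ ^ (-j) * a := by
  have hk : ∀ g : G, g * ⁅a, b⁆ ^ k = ⁅a, b⁆ ^ k * g := Subgroup.mem_center_iff.mp ((Subgroup.center G).zpow_mem hcc k)
  have hbj : b ^ j * a * (b ^ j)⁻¹ = ⁅a, b⁆ ^ (-j) * a := by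
    have h2 := zpow_conj_zpow_of_central hcc 1 j
    rw [zpow_one, one_mul] at h2
    have h3 : a * b ^ j * a⁻¹ * (b ^ j)⁻¹ = ⁅a, b⁆ ^ j := by
      rw [h2]
      generalize ⁅a, b⁆ = c
      group
    have h4 : b ^ j * a * (b ^ j)⁻¹ = (a * b ^ j * a⁻¹ * (b ^ j)⁻¹)⁻¹ * a := by group
    rw [h4, h3, zpow_neg]
  rw [conj_mul_central (hk a).symm, mul_inv_rev, show a ^ i * b ^ j * a * ((b ^ j)⁻¹ * (a ^ i)⁻¹) =
    a ^ i * (b ^ j * a * (b ^ j)⁻¹) * (a ^ i)⁻¹ by group, hbj, conj_central_mul hcc, ((Commute.refl a).zpow_left i).eq,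
    mul_inv_cancel_right]

/-- Uniqueness of the normal form with exponents modulo `p`. -/
theorem cast_eq_of_normal_form [Finite G] (ha : a ^ p = 1) (hb : b ^ p = 1) (hc : ⁅a, b⁆ ≠ 1)
    (hcc : ⁅a, b⁆ ∈ Subgroup.center G) (hcp : ⁅a, b⁆ ^ p = 1) {i j k i' j' k' : ℤ}
    (h : a ^ i * b ^ j * ⁅a, b⁆ ^ k = a ^ i' * b ^ j' * ⁅a, b⁆ ^ k') :
    (i : ZMod p) = i' ∧ (j : ZMod p) = j' ∧ (k : ZMod p) = k' := by
  have hco : orderOf ⁅a, b⁆ = p := orderOf_eq_prime hcp hc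
  have hcast : ∀ {s t : ℤ}, ⁅a, b⁆ ^ s = ⁅a, b⁆ ^ t → (s : ZMod p) = t := by
    intro s t hst
    rw [ZMod.intCast_eq_intCast_iff_dvd_sub, ← hco, orderOf_dvd_iff_zpow_eq_one, zpow_sub, hst, mul_inv_cancel]
  have h1 := comm_formula hcc i j k
  rw [h, comm_formula hcc, mul_left_inj] at h1
  have hii : (i : ZMod p) = i' := hcast h1.symm
  have h2 := comm_formula' hcc i j k
  rw [h, comm_formula' hcc, mul_left_inj] at h2
  have hjj : (j : ZMod p) = j' := by
    have := hcast h2.symm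
    simpa using this
  have hzpa : ∀ {s t : ℤ}, (s : ZMod p) = t → a ^ s = a ^ t := by
    intro s t hst
    rw [ZMod.intCast_eq_intCast_iff_dvd_sub] at hst
    obtain ⟨c, hc⟩ := hst
    have : t = s + p * c := by linarith
    rw [this, zpow_add, zpow_mul, zpow_natCast, ha, one_zpow, mul_one]
  have hzpb : ∀ {s t : ℤ}, (s : ZMod p) = t → b ^ s = b ^ t := by
    intro s t hst
    rw [ZMod.intCast_eq_intCast_iff_dvd_sub] at hst
    obtain ⟨c, hc⟩ := hst
    have : t = s + p * c := by linarith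
    rw [this, zpow_add, zpow_mul, zpow_natCast, hb, one_zpow, mul_one]
  rw [hzpa hii, hzpb hjj, mul_right_inj] at h
  exact ⟨hii, hjj, hcast h⟩

/-- The `p`-th power of the central commutator is trivial. -/
theorem comm_pow_eq_one (ha : a ^ p = 1) (hcc : ⁅a, b⁆ ∈ Subgroup.center G) : ⁅a, b⁆ ^ p = 1 := by
  have h1 := zpow_conj_of_central hcc (p : ℤ)
  rw [zpow_natCast, ha, one_mul, inv_one, mul_one, zpow_natCast] at h1
  exact (mul_eq_right.mp h1.symm)

/-- The order of a group with a normal form. -/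
theorem card_of_normal_form [Finite G] (ha : a ^ p = 1) (hb : b ^ p = 1) (hc : ⁅a, b⁆ ≠ 1)
    (hcc : ⁅a, b⁆ ∈ Subgroup.center G) (hgen : ∀ x : G, ∃ i j k : ℤ, x = a ^ i * b ^ j * ⁅a, b⁆ ^ k) :
    Nat.card G = p ^ 3 := by
  classical
  have hcp := comm_pow_eq_one ha hcc
  -- the bijection with `(ZMod p)³`
  let Ψ : ZMod p × ZMod p × ZMod p → G := fun t =>
    a ^ (t.1.val : ℤ) * b ^ (t.2.1.val : ℤ) * ⁅a, b⁆ ^ (t.2.2.val : ℤ)
  have hinj : Function.Injective Ψ := by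
    rintro ⟨x, y, z⟩ ⟨x', y', z'⟩ h
    obtain ⟨h1, h2, h3⟩ : (((x.val : ℕ) : ℤ) : ZMod p) = ((x'.val : ℕ) : ℤ) ∧ (((y.val : ℕ) : ℤ) : ZMod p) = ((y'.val : ℕ) : ℤ) ∧
        (((z.val : ℕ) : ℤ) : ZMod p) = ((z'.val : ℕ) : ℤ) := cast_eq_of_normal_form ha hb hc hcc hcp h
    have hcv : ∀ t : ZMod p, (((t.val : ℕ) : ℤ) : ZMod p) = t := fun t => by simp
    rw [hcv, hcv] at h1 h2 h3
    rw [h1, h2, h3]
  have hsurj : Function.Surjective Ψ := by
    intro x
    obtain ⟨i, j, k, rfl⟩ := hgen x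
    refine ⟨((i : ZMod p), (j : ZMod p), (k : ZMod p)), ?_⟩
    have hred : ∀ (g : G), g ^ p = 1 → ∀ s : ℤ, g ^ (((s : ZMod p).val : ℕ) : ℤ) = g ^ s := by
      intro g hg s
      have h1 : ((((s : ZMod p).val : ℕ) : ℤ) : ZMod p) = s := by simp
      rw [ZMod.intCast_eq_intCast_iff_dvd_sub] at h1
      obtain ⟨c, hc⟩ := h1
      have : s = (((s : ZMod p).val : ℕ) : ℤ) + p * c := by linarith
      conv_rhs => rw [this, zpow_add, zpow_mul, zpow_natCast g p, hg, one_zpow, mul_one]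
    show a ^ (((i : ZMod p).val : ℕ) : ℤ) * b ^ (((j : ZMod p).val : ℕ) : ℤ) * ⁅a, b⁆ ^ (((k : ZMod p).val : ℕ) : ℤ) = _
    rw [hred a ha, hred b hb, hred _ hcp]
  rw [← Nat.card_congr (Equiv.ofBijective Ψ ⟨hinj, hsurj⟩), Nat.card_prod, Nat.card_prod, Nat.card_zmod]
  ring

/-- The extraspecial conclusion. -/
theorem isExtraspecial_of_normal_form [Finite G] (hodd : p ≠ 2) (ha : a ^ p = 1) (hb : b ^ p = 1) (hc : ⁅a, b⁆ ≠ 1)
    (hcc : ⁅a, b⁆ ∈ Subgroup.center G) (hgen : ∀ x : G, ∃ i j k : ℤ, x = a ^ i * b ^ j * ⁅a, b⁆ ^ k) :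
    Cfsg.IsExtraspecial p G ∧ Nat.card G = p ^ 3 ∧ Monoid.exponent G = p := by
  classical
  have hpp := hp.out
  have hcp := comm_pow_eq_one ha hcc
  have hco : orderOf ⁅a, b⁆ = p := orderOf_eq_prime hcp hc
  have hcard := card_of_normal_form ha hb hc hcc hgen
  have hG : IsPGroup p G := IsPGroup.of_card hcard
  haveI hN : (Subgroup.zpowers ⁅a, b⁆).Normal := by
    constructor
    intro n hn g
    obtain ⟨k, rfl⟩ := Subgroup.mem_zpowers_iff.mp hn
    rw [← conj_zpow, Subgroup.mem_center_iff.mp hcc g, mul_inv_cancel_right]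
    exact Subgroup.zpow_mem_zpowers _ _
  -- the `p`-th powers
  have hpow : ∀ x : G, x ^ p = 1 := by
    intro x
    obtain ⟨i, j, k, rfl⟩ := hgen x
    have hcent : ∀ (s : ℤ) (g : G), Commute (⁅a, b⁆ ^ s) g := fun s g =>
      (Subgroup.mem_center_iff.mp ((Subgroup.center G).zpow_mem hcc s) g).symm
    have hai : (a ^ i) ^ p = 1 := by
      rw [← zpow_natCast, ← zpow_mul, mul_comm, zpow_mul, zpow_natCast, ha, one_zpow]
    have hbj : (b ^ j) ^ p = 1 := by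
      rw [← zpow_natCast, ← zpow_mul, mul_comm, zpow_mul, zpow_natCast, hb, one_zpow]
    have hck : (⁅a, b⁆ ^ k) ^ p = 1 := by
      rw [← zpow_natCast, ← zpow_mul, mul_comm, zpow_mul, zpow_natCast, hcp, one_zpow]
    have hyx : b ^ j * a ^ i = ⁅a, b⁆ ^ (-(i * j)) * a ^ i * b ^ j := by
      have h1 := zpow_conj_zpow_of_central hcc i j
      have h2 : a ^ i * b ^ j = ⁅a, b⁆ ^ (i * j) * b ^ j * a ^ i := by
        rw [← h1]
        group
      rw [zpow_neg, mul_assoc, h2]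
      generalize ⁅a, b⁆ ^ (i * j) = w
      group
    have h3 := Cfsg.Agent.Lib.CyclicMax.mul_pow_class_two' (x := a ^ i) (y := b ^ j) (z := ⁅a, b⁆ ^ (-(i * j))) hyx
      (hcent _ _) (hcent _ _) p
    have h2lt : 2 < p := lt_of_le_of_ne hpp.two_le (Ne.symm hodd)
    have hdvd : p ∣ p.choose 2 := hpp.dvd_choose_self (by norm_num) h2lt
    obtain ⟨m, hm⟩ := hdvd
    have h4 : (⁅a, b⁆ ^ (-(i * j))) ^ (p.choose 2) = 1 := by
      rw [hm, pow_mul, ← zpow_natCast (⁅a, b⁆ ^ (-(i * j))) p, ← zpow_mul, mul_comm, zpow_mul, zpow_natCast, hcp, one_zpow,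
        one_pow]
    rw [(hcent k (a ^ i * b ^ j)).symm.mul_pow, h3, h4, hai, hbj, hck]
    simp
  -- the centre
  have hcen : Subgroup.center G = Subgroup.zpowers ⁅a, b⁆ := by
    apply le_antisymm
    · intro x hx
      obtain ⟨i, j, k, rfl⟩ := hgen x
      have h1 := comm_formula hcc i j k
      have h2 := comm_formula' hcc i j k
      rw [← Subgroup.mem_center_iff.mp hx b, mul_inv_cancel_right] at h1
      rw [← Subgroup.mem_center_iff.mp hx a, mul_inv_cancel_right] at h2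
      have h1' : ⁅a, b⁆ ^ i = 1 := (mul_eq_right.mp h1.symm)
      have h2' : ⁅a, b⁆ ^ (-j) = 1 := (mul_eq_right.mp h2.symm)
      have h3 : (p : ℤ) ∣ i := by
        rw [← hco]
        exact orderOf_dvd_iff_zpow_eq_one.mpr h1'
      have h4 : (p : ℤ) ∣ j := by
        rw [← hco, ← Int.dvd_neg]
        exact orderOf_dvd_iff_zpow_eq_one.mpr h2'
      obtain ⟨m, rfl⟩ := h3
      obtain ⟨l, rfl⟩ := h4
      rw [zpow_mul, zpow_mul, zpow_natCast, zpow_natCast, ha, hb, one_zpow, one_zpow, one_mul, one_mul]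
      exact Subgroup.zpow_mem_zpowers _ _
    · rw [Subgroup.zpowers_le]
      exact hcc
  have hcard_cen : Nat.card (Subgroup.center G) = p := by
    rw [hcen, Nat.card_zpowers, hco]
  -- the commutator subgroup
  have hcomm : commutator G = Subgroup.zpowers ⁅a, b⁆ := by
    apply le_antisymm
    · have hcq : ∀ x y : G ⧸ Subgroup.zpowers ⁅a, b⁆, x * y = y * x := by
        intro x y
        obtain ⟨x, rfl⟩ := QuotientGroup.mk_surjective x
        obtain ⟨y, rfl⟩ := QuotientGroup.mk_surjective y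
        obtain ⟨i, j, k, rfl⟩ := hgen x
        obtain ⟨l, m, n, rfl⟩ := hgen y
        have hc1 : ((⁅a, b⁆ : G) : G ⧸ Subgroup.zpowers ⁅a, b⁆) = 1 :=
          (QuotientGroup.eq_one_iff _).mpr (Subgroup.mem_zpowers _)
        have hab : Commute ((a : G) : G ⧸ Subgroup.zpowers ⁅a, b⁆) ((b : G) : G ⧸ Subgroup.zpowers ⁅a, b⁆) := by
          have h1 : a * b = ⁅a, b⁆ * (b * a) := by
            rw [commutatorElement_def]
            group
          show _ * _ = _ * _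
          rw [← QuotientGroup.mk_mul, h1, QuotientGroup.mk_mul, hc1, one_mul, QuotientGroup.mk_mul]
        simp only [QuotientGroup.mk_mul, QuotientGroup.mk_zpow, hc1, one_zpow, mul_one]
        have h1 := (hab.zpow_zpow i m)
        have h2 := (hab.symm.zpow_zpow j l)
        have h3 := ((Commute.refl ((a : G) : G ⧸ Subgroup.zpowers ⁅a, b⁆)).zpow_zpow i l)
        have h4 := ((Commute.refl ((b : G) : G ⧸ Subgroup.zpowers ⁅a, b⁆)).zpow_zpow j m)
        exact (Commute.mul_left (Commute.mul_right h3 h1) (Commute.mul_right h2 h4)).eq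
      have := (Subgroup.Normal.quotient_commutative_iff_commutator_le (N := Subgroup.zpowers ⁅a, b⁆)).mp ⟨⟨hcq⟩⟩
      exact this
    · rw [Subgroup.zpowers_le]
      exact Subgroup.commutator_mem_commutator (Subgroup.mem_top a) (Subgroup.mem_top b)
  have hfrat : frattini G = Subgroup.zpowers ⁅a, b⁆ := by
    apply le_antisymm
    · apply Cfsg.Agent.Lib.Frat.frattini_le_of_commutator_pow (p := p) _ hcomm.le
      intro x
      rw [hpow]
      exact Subgroup.one_mem _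
    · rw [← hcomm]
      exact Cfsg.Agent.Lib.Frat.commutator_le_frattini hG
  refine ⟨⟨⟨hG, ?_, ?_⟩, hcard_cen⟩, hcard, ?_⟩
  · rw [hfrat, hcen]
  · rw [hcomm, hcen]
  · have h1 : Monoid.exponent G ∣ p := Monoid.exponent_dvd_of_forall_pow_eq_one hpow
    rcases (Nat.dvd_prime hpp).mp h1 with h | h
    · exfalso
      rw [Monoid.exp_eq_one_iff] at h
      exact hc (Subsingleton.elim _ _)
    · exact h

end Gens

section Compl

theorem exists_compl_aux {C : Type*} [CommGroup C] [Module (ZMod p) (Additive C)] (c : C) :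
    ∃ A : Subgroup C, (∀ x ∈ A, x ∈ Subgroup.zpowers c → x = 1) ∧
      ∀ x, ∃ n ∈ Subgroup.zpowers c, ∃ v ∈ A, x = n * v := by
  classical
  obtain ⟨W, hW⟩ := Submodule.exists_isCompl (Submodule.span (ZMod p) {Additive.ofMul c})
  refine ⟨{ carrier := {x | Additive.ofMul x ∈ W}
            mul_mem' := fun ha hb => W.add_mem ha hb
            one_mem' := W.zero_mem
            inv_mem' := fun ha => W.neg_mem ha }, ?_, ?_⟩
  · intro x hx hxc
    obtain ⟨i, rfl⟩ := Subgroup.mem_zpowers_iff.mp hxc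
    have h1 : Additive.ofMul (c ^ i) ∈ Submodule.span (ZMod p) {Additive.ofMul c} := by
      have h2 : Additive.ofMul (c ^ i) = i • Additive.ofMul c := ofMul_zpow i c
      rw [h2]
      exact (Submodule.span (ZMod p) {Additive.ofMul c}).toAddSubgroup.zsmul_mem (Submodule.mem_span_singleton_self _) i
    exact (Submodule.disjoint_def.mp hW.disjoint) _ h1 hx
  · intro x
    have h1 : Additive.ofMul x ∈ (Submodule.span (ZMod p) {Additive.ofMul c}) ⊔ W := by
      rw [hW.sup_eq_top]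
      trivial
    obtain ⟨u, hu, v, hv, huv⟩ := Submodule.mem_sup.mp h1
    obtain ⟨r, rfl⟩ := Submodule.mem_span_singleton.mp hu
    refine ⟨c ^ r.val, Subgroup.npow_mem_zpowers c r.val, Additive.toMul v, hv, ?_⟩
    have h2 : (r.val : ZMod p) • Additive.ofMul c = r.val • Additive.ofMul c :=
      Nat.cast_smul_eq_nsmul (ZMod p) r.val _
    rw [ZMod.natCast_val, ZMod.cast_id', id] at h2
    rw [h2] at huv
    have h3 := congrArg Additive.toMul huv
    simpa using h3.symm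

theorem exists_compl_elem {C : Type*} [CommGroup C] (hexp : ∀ x : C, x ^ p = 1) (c : C) :
    ∃ A : Subgroup C, (∀ x ∈ A, x ∈ Subgroup.zpowers c → x = 1) ∧
      ∀ x, ∃ n ∈ Subgroup.zpowers c, ∃ v ∈ A, x = n * v := by
  letI hmod : Module (ZMod p) (Additive C) := AddCommGroup.zmodModule (n := p) (fun x => by
    show Additive.ofMul ((Additive.toMul x) ^ p) = 0
    rw [hexp]
    rfl)
  exact exists_compl_aux (p := p) c

end Compl

section Decomp

variable {G : Type u} [Group G] [Finite G]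

theorem swap_zpow {a b : G} (hcc : ⁅a, b⁆ ∈ Subgroup.center G) (i j : ℤ) :
    b ^ j * a ^ i = a ^ i * b ^ j * ⁅a, b⁆ ^ (-(i * j)) := by
  have h1 := zpow_conj_zpow_of_central hcc i j
  have h2 : a ^ i * b ^ j = ⁅a, b⁆ ^ (i * j) * b ^ j * a ^ i := by
    rw [← h1]
    generalize ⁅a, b⁆ = c
    group
  have h3 : Commute (⁅a, b⁆ ^ (-(i * j))) (a ^ i * b ^ j) :=
    (Subgroup.mem_center_iff.mp ((Subgroup.center G).zpow_mem hcc _) _).symm
  rw [← h3.eq, zpow_neg, h2]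
  generalize ⁅a, b⁆ ^ (i * j) = w
  group

omit [Finite G] in
theorem nf_mul {a b c : G} (hcz : ∀ (s : ℤ) (g : G), Commute (c ^ s) g)
    (hswap : ∀ i j : ℤ, b ^ j * a ^ i = a ^ i * b ^ j * c ^ (-(i * j))) (i j k l m n : ℤ) :
    a ^ i * b ^ j * c ^ k * (a ^ l * b ^ m * c ^ n) = a ^ (i + l) * b ^ (j + m) * c ^ (k + n + (-(l * j))) := by
  calc a ^ i * b ^ j * c ^ k * (a ^ l * b ^ m * c ^ n)
      = a ^ i * (b ^ j * (c ^ k * (a ^ l * b ^ m))) * c ^ n := by group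
    _ = a ^ i * (b ^ j * ((a ^ l * b ^ m) * c ^ k)) * c ^ n := by rw [(hcz k _).eq]
    _ = a ^ i * (b ^ j * a ^ l) * b ^ m * c ^ k * c ^ n := by group
    _ = a ^ i * (a ^ l * b ^ j * c ^ (-(l * j))) * b ^ m * c ^ k * c ^ n := by rw [hswap]
    _ = a ^ i * a ^ l * b ^ j * (c ^ (-(l * j)) * b ^ m) * c ^ k * c ^ n := by group
    _ = a ^ i * a ^ l * b ^ j * (b ^ m * c ^ (-(l * j))) * c ^ k * c ^ n := by rw [(hcz _ _).eq]
    _ = _ := by
      rw [zpow_add a, zpow_add b, zpow_add c, zpow_add c]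
      group

omit [Finite G] in
theorem nf_inv {a b c : G} (hcz : ∀ (s : ℤ) (g : G), Commute (c ^ s) g)
    (hswap : ∀ i j : ℤ, b ^ j * a ^ i = a ^ i * b ^ j * c ^ (-(i * j))) (i j k : ℤ) :
    (a ^ i * b ^ j * c ^ k)⁻¹ = a ^ (-i) * b ^ (-j) * c ^ (-k + (-(i * j))) := by
  have h1 := nf_mul hcz hswap i j k (-i) (-j) (-k + (-(i * j)))
  rw [eq_comm]
  apply eq_inv_of_mul_eq_one_right
  rw [h1]
  have e1 : i + -i = 0 := by ring
  have e2 : j + -j = 0 := by ring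
  have e3 : k + (-k + -(i * j)) + -(-i * j) = 0 := by ring
  rw [e1, e2, e3]
  simp

/-- The subgroup generated by `a`, `b`, as the set of normal forms. -/
def nfSub {a b : G} (hcc : ⁅a, b⁆ ∈ Subgroup.center G) : Subgroup G where
  carrier := {x | ∃ i j k : ℤ, x = a ^ i * b ^ j * ⁅a, b⁆ ^ k}
  mul_mem' := by
    rintro _ _ ⟨i, j, k, rfl⟩ ⟨l, m, n, rfl⟩
    exact ⟨_, _, _, nf_mul (fun s g => (Subgroup.mem_center_iff.mp ((Subgroup.center G).zpow_mem hcc s) g).symm)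
      (swap_zpow hcc) i j k l m n⟩
  one_mem' := ⟨0, 0, 0, by simp⟩
  inv_mem' := by
    rintro _ ⟨i, j, k, rfl⟩
    exact ⟨_, _, _, nf_inv (fun s g => (Subgroup.mem_center_iff.mp ((Subgroup.center G).zpow_mem hcc s) g).symm)
      (swap_zpow hcc) i j k⟩

theorem mem_nfSub {a b : G} (hcc : ⁅a, b⁆ ∈ Subgroup.center G) {x : G} :
    x ∈ nfSub hcc ↔ ∃ i j k : ℤ, x = a ^ i * b ^ j * ⁅a, b⁆ ^ k := Iff.rfl

omit [Finite G] in
/-- A central element of `nfSub` lies in the cyclic group generated by the commutator. -/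
theorem mem_zpowers_of_central {a b : G} (ha : a ^ p = 1) (hb : b ^ p = 1) (hc : ⁅a, b⁆ ≠ 1)
    (hcc : ⁅a, b⁆ ∈ Subgroup.center G) {i j k : ℤ} (hx : a ^ i * b ^ j * ⁅a, b⁆ ^ k ∈ Subgroup.center G) :
    a ^ i * b ^ j * ⁅a, b⁆ ^ k ∈ Subgroup.zpowers ⁅a, b⁆ := by
  have hcp := comm_pow_eq_one ha hcc
  have hco : orderOf ⁅a, b⁆ = p := orderOf_eq_prime hcp hc
  have h1 := comm_formula hcc i j k
  have h2 := comm_formula' hcc i j k
  rw [← Subgroup.mem_center_iff.mp hx b, mul_inv_cancel_right] at h1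
  rw [← Subgroup.mem_center_iff.mp hx a, mul_inv_cancel_right] at h2
  have h1' : ⁅a, b⁆ ^ i = 1 := (mul_eq_right.mp h1.symm)
  have h2' : ⁅a, b⁆ ^ (-j) = 1 := (mul_eq_right.mp h2.symm)
  have h3 : (p : ℤ) ∣ i := by
    rw [← hco]
    exact orderOf_dvd_iff_zpow_eq_one.mpr h1'
  have h4 : (p : ℤ) ∣ j := by
    rw [← hco, ← Int.dvd_neg]
    exact orderOf_dvd_iff_zpow_eq_one.mpr h2'
  obtain ⟨m, rfl⟩ := h3
  obtain ⟨l, rfl⟩ := h4
  rw [zpow_mul, zpow_mul, zpow_natCast, zpow_natCast, ha, hb, one_zpow, one_zpow, one_mul, one_mul]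
  exact Subgroup.zpow_mem_zpowers _ _

/-- The decomposition. -/
theorem exists_complement_of_gens {a b : G} (ha : a ^ p = 1) (hb : b ^ p = 1) (hc : ⁅a, b⁆ ≠ 1)
    (hcc : ⁅a, b⁆ ∈ Subgroup.center G) (hC : ∀ w ∈ Subgroup.center G, w ^ p = 1)
    (hgen : ∀ x : G, ∃ i j : ℤ, ∃ w ∈ Subgroup.center G, x = a ^ i * b ^ j * w) :
    ∃ A : Subgroup G, (∀ w ∈ A, w ∈ Subgroup.center G) ∧ (∀ x ∈ nfSub hcc, x ∈ A → x = 1) ∧
      ∀ x : G, ∃ e ∈ nfSub hcc, ∃ v ∈ A, x = e * v := by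
  classical
  letI cC : CommGroup (Subgroup.center G) := { (inferInstance : Group (Subgroup.center G)) with
    mul_comm := fun x y => Subtype.ext (Subgroup.mem_center_iff.mp y.2 x) }
  have hexpC : ∀ x : Subgroup.center G, x ^ p = 1 := fun x => Subtype.ext (hC x x.2)
  obtain ⟨A₀, hA₀, hA₀c⟩ := exists_compl_elem (p := p) hexpC (⟨⁅a, b⁆, hcc⟩ : Subgroup.center G)
  refine ⟨A₀.map (Subgroup.center G).subtype, ?_, ?_, ?_⟩
  · rintro _ ⟨w, -, rfl⟩
    exact w.2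
  · rintro x ⟨i, j, k, hx⟩ ⟨w, hwA, rfl⟩
    have hx' : a ^ i * b ^ j * ⁅a, b⁆ ^ k ∈ Subgroup.center G := by
      have : (w : G) = a ^ i * b ^ j * ⁅a, b⁆ ^ k := hx
      rw [← this]
      exact w.2
    have h1 := mem_zpowers_of_central ha hb hc hcc hx'
    have h2 : (w : G) ∈ Subgroup.zpowers ⁅a, b⁆ := by
      have : (w : G) = a ^ i * b ^ j * ⁅a, b⁆ ^ k := hx
      rwa [this]
    obtain ⟨s, hs⟩ := Subgroup.mem_zpowers_iff.mp h2
    have h3 : w ∈ Subgroup.zpowers (⟨⁅a, b⁆, hcc⟩ : Subgroup.center G) := by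
      refine Subgroup.mem_zpowers_iff.mpr ⟨s, Subtype.ext ?_⟩
      simpa using hs
    have h4 := hA₀ w hwA h3
    exact congrArg Subtype.val h4
  · intro x
    obtain ⟨i, j, w, hw, rfl⟩ := hgen x
    obtain ⟨n, hn, v, hv, hnv⟩ := hA₀c ⟨w, hw⟩
    obtain ⟨k, hk⟩ := Subgroup.mem_zpowers_iff.mp hn
    refine ⟨a ^ i * b ^ j * ⁅a, b⁆ ^ k, ⟨i, j, k, rfl⟩, v, ⟨v, hv, rfl⟩, ?_⟩
    have h1 : w = ⁅a, b⁆ ^ k * v := by
      have := congrArg Subtype.val hnv
      rw [Subgroup.coe_mul, ← hk] at this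
      simpa using this
    rw [h1]
    show a ^ i * b ^ j * (⁅a, b⁆ ^ k * (v : G)) = a ^ i * b ^ j * ⁅a, b⁆ ^ k * (v : G)
    simp only [mul_assoc]

/-- The isomorphism with the product. -/
theorem nonempty_mulEquiv_prod (E A : Subgroup G) (hA : ∀ w ∈ A, w ∈ Subgroup.center G) (h1 : ∀ x ∈ E, x ∈ A → x = 1)
    (h2 : ∀ x : G, ∃ e ∈ E, ∃ v ∈ A, x = e * v) : Nonempty (G ≃* E × A) := by
  classical
  have hcomm : ∀ (e : E) (v : A), Commute (E.subtype e) (A.subtype v) := fun e v =>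
    (Subgroup.mem_center_iff.mp (hA v v.2) e)
  let μ : E × A →* G := MonoidHom.noncommCoprod E.subtype A.subtype hcomm
  have hμ : ∀ t : E × A, μ t = t.1 * t.2 := fun _ => rfl
  have hbij : Function.Bijective μ := by
    constructor
    · rw [injective_iff_map_eq_one]
      rintro ⟨e, v⟩ h
      rw [hμ] at h
      have h3 : (e : G) = (v : G)⁻¹ := eq_inv_of_mul_eq_one_left h
      have h4 : (e : G) = 1 := h1 e e.2 (by rw [h3]; exact A.inv_mem v.2)
      have h5 : (v : G) = 1 := by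
        simpa [h4] using h
      exact Prod.ext (Subtype.ext h4) (Subtype.ext h5)
    · intro x
      obtain ⟨e, he, v, hv, rfl⟩ := h2 x
      exact ⟨(⟨e, he⟩, ⟨v, hv⟩), rfl⟩
  exact ⟨(MulEquiv.ofBijective μ hbij).symm⟩

/-- A finite type without algebraic structure. -/
def Car (n : ℕ) : Type := Fin n

instance (n : ℕ) : Finite (Car n) := inferInstanceAs (Finite (Fin n))

/-- Main statement. -/
theorem decomp_main (hG : IsPGroup p G) {a b : G} (ha : a ^ p = 1) (hb : b ^ p = 1) (hc : ⁅a, b⁆ ≠ 1)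
    (hcc : ⁅a, b⁆ ∈ Subgroup.center G) (hC : ∀ w ∈ Subgroup.center G, w ^ p = 1)
    (hgen : ∀ x : G, ∃ i j : ℤ, ∃ w ∈ Subgroup.center G, x = a ^ i * b ^ j * w) :
    (p = 2 → ∃ (A : Type) (_ : CommGroup A), (∀ a : A, a ^ 2 = 1) ∧ Nonempty (G ≃* DihedralGroup 4 × A)) ∧
    (p ≠ 2 → ∃ (E : Type) (_ : Group E) (A : Type) (_ : CommGroup A), Cfsg.IsExtraspecial p E ∧ Nat.card E = p ^ 3 ∧
      Monoid.exponent E = p ∧ (∀ a : A, a ^ p = 1) ∧ Nonempty (G ≃* E × A)) := by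
  classical
  have hpp := hp.out
  obtain ⟨A, hA, hA1, hA2⟩ := exists_complement_of_gens ha hb hc hcc hC hgen
  obtain ⟨e₀⟩ := nonempty_mulEquiv_prod (nfSub hcc) A hA hA1 hA2
  -- the type-level copy of `A`
  letI cA : CommGroup A := { (inferInstance : Group A) with
    mul_comm := fun x y => Subtype.ext (Subgroup.mem_center_iff.mp (hA y y.2) x) }
  let eA : A ≃ Car (Nat.card A) := Finite.equivFin A
  letI cF : CommGroup (Car (Nat.card A)) := eA.symm.commGroup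
  let mA : Car (Nat.card A) ≃* A := eA.symm.mulEquiv
  have hAexp : ∀ x : Car (Nat.card A), x ^ p = 1 := by
    intro x
    apply mA.injective
    rw [map_pow, map_one]
    exact Subtype.ext (hC _ (hA _ (mA x).2))
  -- elements of `nfSub`
  let a₁ : nfSub hcc := ⟨a, 1, 0, 0, by simp⟩
  let b₁ : nfSub hcc := ⟨b, 0, 1, 0, by simp⟩
  have hcomm₁ : (⁅a₁, b₁⁆ : nfSub hcc) = ⟨⁅a, b⁆, 0, 0, 1, by simp⟩ := rfl
  have hc₁ : ⁅a₁, b₁⁆ ≠ 1 := by
    rw [hcomm₁]
    intro h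
    exact hc (congrArg Subtype.val h)
  have hcc₁ : ⁅a₁, b₁⁆ ∈ Subgroup.center (nfSub hcc) := by
    rw [Subgroup.mem_center_iff]
    intro g
    rw [hcomm₁]
    exact Subtype.ext (Subgroup.mem_center_iff.mp hcc g)
  have hgen₁ : ∀ x : nfSub hcc, ∃ i j k : ℤ, x = a₁ ^ i * b₁ ^ j * ⁅a₁, b₁⁆ ^ k := by
    rintro ⟨x, i, j, k, rfl⟩
    refine ⟨i, j, k, Subtype.ext ?_⟩
    rw [hcomm₁]
    simp [a₁, b₁]
  have ha₁ : a₁ ^ p = 1 := Subtype.ext ha
  have hb₁ : b₁ ^ p = 1 := Subtype.ext hb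
  constructor
  · rintro rfl
    -- the dihedral group
    have hcard := card_of_normal_form (p := 2) ha₁ hb₁ hc₁ hcc₁ hgen₁
    have hD : Nonempty (nfSub hcc ≃* DihedralGroup 4) := by
      have ha2 : a₁ * a₁ = 1 := by rw [← pow_two, ha₁]
      have hb2 : b₁ * b₁ = 1 := by rw [← pow_two, hb₁]
      have hainv : a₁⁻¹ = a₁ := inv_eq_of_mul_eq_one_left ha2
      have hbinv : b₁⁻¹ = b₁ := inv_eq_of_mul_eq_one_left hb2
      have hz2 : (a₁ * b₁) ^ 2 = ⁅a₁, b₁⁆ := by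
        rw [commutatorElement_def, hainv, hbinv, pow_two]
        group
      have hcp := comm_pow_eq_one ha₁ hcc₁
      have hz4 : (a₁ * b₁) ^ 4 = 1 := by
        rw [show 4 = 2 * 2 from rfl, pow_mul, hz2, hcp]
      have ho : orderOf (a₁ * b₁) = 4 := by
        have := orderOf_eq_prime_pow (x := a₁ * b₁) (p := 2) (n := 1) (by
          rw [pow_one, hz2]
          exact hc₁) (by simpa using hz4)
        simpa using this
      apply Cfsg.Agent.Lib.DihedralIso.nonempty_dihedral_of_card (a₁ * b₁) a₁ hz4 ha2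
      · rw [mul_inv_rev, hainv, hbinv]
        calc a₁ * (a₁ * b₁) * a₁ = (a₁ * a₁) * (b₁ * a₁) := by group
          _ = b₁ * a₁ := by rw [ha2, one_mul]
      · exact ho
      · intro k hk
        apply hc₁
        have h1 : Commute ((a₁ * b₁) ^ k) (a₁ * b₁) := (Commute.refl (a₁ * b₁)).pow_left k
        rw [hk] at h1
        have h2 : a₁ * b₁ = b₁ * a₁ := by
          have h3 : a₁ * (a₁ * b₁) = (a₁ * b₁) * a₁ := h1
          rw [mul_assoc a₁ b₁ a₁] at h3
          exact mul_left_cancel h3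
        rw [commutatorElement_def, h2]
        group
      · rw [hcard]
        rfl
    obtain ⟨eD⟩ := hD
    exact ⟨Car (Nat.card A), cF, hAexp, ⟨e₀.trans (eD.prodCongr mA.symm)⟩⟩
  · intro hodd
    let eE : nfSub hcc ≃ Car (Nat.card (nfSub hcc)) := Finite.equivFin _
    letI gF : Group (Car (Nat.card (nfSub hcc))) := eE.symm.group
    let mE : Car (Nat.card (nfSub hcc)) ≃* nfSub hcc := eE.symm.mulEquiv
    let a₂ := mE.symm a₁
    let b₂ := mE.symm b₁
    have hcomm₂ : ⁅a₂, b₂⁆ = mE.symm ⁅a₁, b₁⁆ := (map_commutatorElement mE.symm.toMonoidHom a₁ b₁).symm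
    have hc₂ : ⁅a₂, b₂⁆ ≠ 1 := by
      rw [hcomm₂]
      intro h
      apply hc₁
      exact (map_eq_one_iff mE.symm mE.symm.injective).mp h
    have hcc₂ : ⁅a₂, b₂⁆ ∈ Subgroup.center (Car (Nat.card (nfSub hcc))) := by
      rw [hcomm₂, Subgroup.mem_center_iff]
      intro g
      apply mE.injective
      rw [map_mul, map_mul, MulEquiv.apply_symm_apply]
      exact Subgroup.mem_center_iff.mp hcc₁ _
    have hgen₂ : ∀ x : Car (Nat.card (nfSub hcc)), ∃ i j k : ℤ, x = a₂ ^ i * b₂ ^ j * ⁅a₂, b₂⁆ ^ k := by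
      intro x
      obtain ⟨i, j, k, h⟩ := hgen₁ (mE x)
      refine ⟨i, j, k, mE.injective ?_⟩
      rw [h, hcomm₂, map_mul, map_mul, map_zpow, map_zpow, map_zpow, MulEquiv.apply_symm_apply, MulEquiv.apply_symm_apply,
        MulEquiv.apply_symm_apply]
    have ha₂ : a₂ ^ p = 1 := by
      show (mE.symm a₁) ^ p = 1
      rw [← map_pow, ha₁, map_one]
    have hb₂ : b₂ ^ p = 1 := by
      show (mE.symm b₁) ^ p = 1
      rw [← map_pow, hb₁, map_one]
    obtain ⟨h1, h2, h3⟩ := isExtraspecial_of_normal_form hodd ha₂ hb₂ hc₂ hcc₂ hgen₂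
    exact ⟨Car (Nat.card (nfSub hcc)), gF, Car (Nat.card A), cF, h1, h2, h3, hAexp, ⟨e₀.trans (mE.symm.prodCongr mA.symm)⟩⟩

end Decomp

end Cfsg.Agent.Lib.GenExtraDecomp
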