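import Mathlib
import Cfsg.Agent.Lib.GlaubCycVal
import Cfsg.Agent.Lib.Coprime
import Cfsg.Agent.Lib.CoprimeInv
import Cfsg.Agent.Lib.CoprimeDeg
import Cfsg.Agent.Lib.CharClifford
import Cfsg.Agent.Lib.Glauberman

/-!
# Glauberman's lemma for permutations, invariant constituents

`A`, `P ≤ Perm Ω` of coprime orders, `P` normalizing `A`, one of them solvable, `ω₀` such that the
orbit of `A ⊔ P` is the orbit of `A`. Then `P` fixes a point of the orbit.
-/

set_option autoImplicit false
set_option linter.style.haveILetI false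
set_option linter.unusedVariables false
set_option linter.unusedSectionVars false

namespace Cfsg.Agent.Lib.GlaubFix

open Cfsg Cfsg.Agent.Lib.CharBasic Cfsg.Agent.Lib.CharInd Cfsg.Agent.Lib.GlaubDual
open Cfsg.Agent.Lib.Clifford Cfsg.Agent.Lib.CharKernel
open Cfsg.Agent.Lib.CharInduction Cfsg.Agent.Lib.CharClifford
open scoped ComplexConjugate Classical

universe u

section GroupLemma

/-- Complements in a stabilizer, and conjugacy. -/
theorem exists_conj_into {T : Type u} [Group T] [Finite T] (A H P : Subgroup T) [hA : A.Normal]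
    (hAH : A ⊔ H = ⊤) (hAP : A ⊔ P = ⊤) (hcop : (Nat.card A).Coprime (Nat.card P))
    (hs : Group.IsSolvable A ∨ Group.IsSolvable P) : ∃ g : T, ∀ p ∈ P, g * p * g⁻¹ ∈ H := by
  have hcard : ∀ X : Subgroup T, A ⊔ X = ⊤ → Nat.card T * Nat.card (X ⊓ A : Subgroup T) =
      Nat.card X * Nat.card A := by
    intro X hX
    have h1 := Cfsg.Agent.Lib.CoprimeInv.card_sup_mul_card_inf (H := X) (N := A)
      (by rw [Subgroup.normalizer_eq_top]; exact le_top)
    rw [sup_comm, hX] at h1
    rw [← h1, Subgroup.card_top]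
  have hPA : P ⊓ A = ⊥ := by
    rw [inf_comm]
    exact Cfsg.Agent.Lib.CoprimeInv.inf_eq_bot_of_coprime' hcop
  have hT : Nat.card T = Nat.card P * Nat.card A := by
    have h1 := hcard P hAP
    rw [hPA, Subgroup.card_bot, mul_one] at h1
    exact h1
  have hidx : A.index = Nat.card P := by
    have h1 := Subgroup.card_mul_index A
    rw [hT, mul_comm (Nat.card P)] at h1
    exact Nat.eq_of_mul_eq_mul_left Nat.card_pos h1
  have hH : Nat.card H = Nat.card P * Nat.card (H ⊓ A : Subgroup T) := by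
    have h1 := hcard H hAH
    rw [hT] at h1
    have h2 : Nat.card A * (Nat.card P * Nat.card (H ⊓ A : Subgroup T)) =
        Nat.card A * Nat.card H := by
      calc _ = Nat.card P * Nat.card A * Nat.card (H ⊓ A : Subgroup T) := by ring
        _ = _ := by rw [h1]; ring
    exact (Nat.eq_of_mul_eq_mul_left Nat.card_pos h2).symm
  -- a complement in `H`
  have hK₀ : (A.subgroupOf H).Normal := Subgroup.normal_subgroupOf
  have hcK : Nat.card (A.subgroupOf H) = Nat.card (H ⊓ A : Subgroup T) := by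
    rw [← Subgroup.inf_subgroupOf_right A H, inf_comm]
    exact Cfsg.Agent.Lib.CoprimeInv.card_subgroupOf_of_le inf_le_left
  have hiK : (A.subgroupOf H).index = Nat.card P := by
    have h1 := Subgroup.card_mul_index (A.subgroupOf H)
    rw [hcK, hH, mul_comm (Nat.card P)] at h1
    exact Nat.eq_of_mul_eq_mul_left Nat.card_pos h1
  have hcK' : (Nat.card (A.subgroupOf H)).Coprime (A.subgroupOf H).index := by
    rw [hcK, hiK]
    exact Nat.Coprime.coprime_dvd_left (Subgroup.card_dvd_of_le inf_le_right) hcop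
  obtain ⟨C₀, hC₀⟩ := Subgroup.exists_right_complement'_of_coprime hcK'
  let C : Subgroup T := C₀.map H.subtype
  have hCH : C ≤ H := by
    rintro _ ⟨b, _, rfl⟩
    exact b.2
  have hcC : Nat.card C = A.index := by
    have h1 := hC₀.card_mul_card
    have h2 : Nat.card C = Nat.card C₀ := Subgroup.card_map_of_injective H.subtype_injective
    rw [hcK, hH, mul_comm (Nat.card P)] at h1
    rw [h2, hidx]
    exact Nat.eq_of_mul_eq_mul_left Nat.card_pos h1
  have hs' : Group.IsSolvable A ∨ Group.IsSolvable (T ⧸ A) := by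
    rcases hs with hs | hs
    · exact Or.inl hs
    · right
      refine Group.isSolvable_of_surjective (f := (QuotientGroup.mk' A).comp P.subtype) ?_
      intro y
      obtain ⟨x, rfl⟩ := QuotientGroup.mk'_surjective A y
      have h1 : x ∈ ((A ⊔ P : Subgroup T) : Set T) := by
        rw [hAP]
        trivial
      rw [Subgroup.normal_mul] at h1
      obtain ⟨a, ha, t, ht, rfl⟩ := Set.mem_mul.mp h1
      refine ⟨⟨t, ht⟩, ?_⟩
      show (QuotientGroup.mk' A) t = _
      have h2 : QuotientGroup.mk' A a = 1 := (QuotientGroup.eq_one_iff a).mpr ha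
      rw [map_mul, h2, one_mul]
  obtain ⟨g, hg⟩ := Cfsg.Agent.Lib.Coprime.sz_conj_of_card A (by rw [hidx]; exact hcop) hs' P C
    hidx.symm hcC
  refine ⟨g, fun p hp => hCH ?_⟩
  rw [← hg]
  exact ⟨p, hp, rfl⟩

/-- **Glauberman's lemma** for permutation groups. -/
theorem exists_fixed_of_perm {Ω : Type u} [Finite Ω] (A P : Subgroup (Equiv.Perm Ω))
    (hPA : ∀ p ∈ P, ∀ a ∈ A, p * a * p⁻¹ ∈ A) (hcop : (Nat.card A).Coprime (Nat.card P))
    (hs : Group.IsSolvable A ∨ Group.IsSolvable P) (ω₀ : Ω)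
    (htr : ∀ x ∈ A ⊔ P, ∃ a ∈ A, x ω₀ = a ω₀) :
    ∃ x ∈ A ⊔ P, ∀ p ∈ P, p (x ω₀) = x ω₀ := by
  let L : Subgroup (Equiv.Perm Ω) := A ⊔ P
  have hAL : A ≤ L := le_sup_left
  have hPL : P ≤ L := le_sup_right
  have hLA : L ≤ Subgroup.normalizer (A : Set (Equiv.Perm Ω)) := by
    refine sup_le Subgroup.le_normalizer ?_
    intro p hp
    have h1 : ∀ a, a ∈ A ↔ p * a * p⁻¹ ∈ A := by
      have hcard : Nat.card (A.map (MulAut.conj p).toMonoidHom) = Nat.card A :=
        Subgroup.card_map_of_injective (MulAut.conj p).injective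
      have hle : A.map (MulAut.conj p).toMonoidHom ≤ A := by
        rintro _ ⟨a, ha, rfl⟩
        exact hPA p hp a ha
      have heq : A.map (MulAut.conj p).toMonoidHom = A :=
        Subgroup.eq_of_le_of_card_ge hle (by rw [hcard])
      intro a
      constructor
      · exact hPA p hp a
      · intro h
        rw [← heq] at h
        obtain ⟨b, hb, hba⟩ := h
        have h2 : p * b * p⁻¹ = p * a * p⁻¹ := hba
        have h3 : b = a := by
          have h4 := mul_right_cancel h2
          exact mul_left_cancel h4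
        rwa [← h3]
    exact Subgroup.mem_normalizer_iff.mpr h1
  haveI hA' : (A.subgroupOf L).Normal := Subgroup.normal_subgroupOf_of_le_normalizer hLA
  let H : Subgroup L :=
    { carrier := {x | (x : Equiv.Perm Ω) ω₀ = ω₀}
      mul_mem' := fun {a b} ha hb => by
        have ha' : (a : Equiv.Perm Ω) ω₀ = ω₀ := ha
        have hb' : (b : Equiv.Perm Ω) ω₀ = ω₀ := hb
        show (a : Equiv.Perm Ω) ((b : Equiv.Perm Ω) ω₀) = ω₀
        rw [hb', ha']
      one_mem' := rfl
      inv_mem' := fun {a} ha => by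
        have ha' : (a : Equiv.Perm Ω) ω₀ = ω₀ := ha
        show (a : Equiv.Perm Ω)⁻¹ ω₀ = ω₀
        rw [Equiv.Perm.inv_eq_iff_eq]
        exact ha'.symm }
  have hAH : A.subgroupOf L ⊔ H = ⊤ := by
    rw [eq_top_iff]
    rintro ⟨x, hx⟩ -
    obtain ⟨a, ha, hax⟩ := htr x hx
    have h1 : (⟨a, hAL ha⟩ : L) ∈ A.subgroupOf L := Subgroup.mem_subgroupOf.mpr ha
    have h2 : (⟨a, hAL ha⟩ : L)⁻¹ * ⟨x, hx⟩ ∈ H := by
      show (a⁻¹ * x) ω₀ = ω₀
      rw [Equiv.Perm.mul_apply, hax]
      simp
    have h3 : (⟨x, hx⟩ : L) = ⟨a, hAL ha⟩ * ((⟨a, hAL ha⟩ : L)⁻¹ * ⟨x, hx⟩) := by group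
    rw [h3]
    exact Subgroup.mul_mem _ (Subgroup.mem_sup_left h1) (Subgroup.mem_sup_right h2)
  have hAP : A.subgroupOf L ⊔ P.subgroupOf L = ⊤ :=
    Cfsg.Agent.Lib.Glauberman.subgroupOf_sup_eq_top
  have hcard1 : Nat.card (A.subgroupOf L) = Nat.card A :=
    Cfsg.Agent.Lib.CoprimeInv.card_subgroupOf_of_le hAL
  have hcard2 : Nat.card (P.subgroupOf L) = Nat.card P :=
    Cfsg.Agent.Lib.CoprimeInv.card_subgroupOf_of_le hPL
  have hs' : Group.IsSolvable (A.subgroupOf L) ∨ Group.IsSolvable (P.subgroupOf L) := by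
    rcases hs with hs | hs
    · left
      exact Group.isSolvable_of_isSolvable_injective
        (f := (Subgroup.subgroupOfEquivOfLe hAL).toMonoidHom)
        (Subgroup.subgroupOfEquivOfLe hAL).injective
    · right
      exact Group.isSolvable_of_isSolvable_injective
        (f := (Subgroup.subgroupOfEquivOfLe hPL).toMonoidHom)
        (Subgroup.subgroupOfEquivOfLe hPL).injective
  obtain ⟨g, hg⟩ := exists_conj_into (A.subgroupOf L) H (P.subgroupOf L) hAH hAP
    (by rw [hcard1, hcard2]; exact hcop) hs'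
  refine ⟨(g⁻¹ : L), (g⁻¹ : L).2, fun p hp => ?_⟩
  have h1 : (⟨p, hPL hp⟩ : L) ∈ P.subgroupOf L := Subgroup.mem_subgroupOf.mpr hp
  have h2 := hg _ h1
  have h3 : ((g * ⟨p, hPL hp⟩ * g⁻¹ : L) : Equiv.Perm Ω) ω₀ = ω₀ := h2
  have h4 : (g : Equiv.Perm Ω) (p ((g : Equiv.Perm Ω)⁻¹ ω₀)) = ω₀ := h3
  have h5 : p ((g : Equiv.Perm Ω)⁻¹ ω₀) = (g : Equiv.Perm Ω)⁻¹ ω₀ := by
    rw [Equiv.Perm.eq_inv_iff_eq]
    exact h4
  exact h5

end GroupLemma

section Act

variable {G : Type u} [Group G]

/-- Composition of an irreducible character with an automorphism. -/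
noncomputable def compIrr (r : MulAut G) (χ : IrrCharacter G) : IrrCharacter G :=
  ⟨(χ : G → ℂ) ∘ r, isIrrCharacter_comp_of_surjective r.toMonoidHom r.surjective χ.2⟩

theorem compIrr_apply (r : MulAut G) (χ : IrrCharacter G) (g : G) :
    (compIrr r χ : G → ℂ) g = (χ : G → ℂ) (r g) := rfl

theorem compIrr_comp (r s : MulAut G) (χ : IrrCharacter G) :
    compIrr r (compIrr s χ) = compIrr (s * r) χ := by
  apply Subtype.ext
  rfl

theorem compIrr_one (χ : IrrCharacter G) : compIrr (1 : MulAut G) χ = χ := by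
  apply Subtype.ext
  rfl

/-- The action of the automorphism group on irreducible characters. -/
noncomputable def actAut : MulAut G →* Equiv.Perm (IrrCharacter G) where
  toFun r :=
    { toFun := compIrr r⁻¹
      invFun := compIrr r
      left_inv := fun χ => by rw [compIrr_comp, inv_mul_cancel, compIrr_one]
      right_inv := fun χ => by rw [compIrr_comp, mul_inv_cancel, compIrr_one] }
  map_one' := by
    ext χ : 1
    show compIrr (1 : MulAut G)⁻¹ χ = χ
    rw [inv_one, compIrr_one]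
  map_mul' r s := by
    ext χ : 1
    show compIrr (r * s)⁻¹ χ = compIrr r⁻¹ (compIrr s⁻¹ χ)
    rw [compIrr_comp, mul_inv_rev]

theorem actAut_apply (r : MulAut G) (χ : IrrCharacter G) (g : G) :
    (actAut r χ : G → ℂ) g = (χ : G → ℂ) (r⁻¹ g) := rfl

variable [Fintype G]

/-- Inner products with invariant functions do not change under the action. -/
theorem classInner_actAut (r : MulAut G) {f : G → ℂ} (hf : ∀ g, f (r g) = f g)
    (θ : IrrCharacter G) : classInner f (actAut r θ : G → ℂ) = classInner f (θ : G → ℂ) := by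
  have h1 := classInner_comp_mulEquiv r⁻¹ f (θ : G → ℂ)
  rw [← h1]
  congr 1
  funext g
  show f g = f (r⁻¹ g)
  have := hf (r⁻¹ g)
  rw [← this]
  simp

end Act

section Constituent

variable {G S : Type u} [Group G] [Fintype G] [Group S] [Finite S]

/-- Restriction of an action to a stable normal subgroup. -/
def resN (a : S →* MulAut G) (N : Subgroup G) (hNa : ∀ s, ∀ n ∈ N, a s n ∈ N) : S →* MulAut N where
  toFun s :=
    { toFun := fun n => ⟨a s n, hNa s n n.2⟩
      invFun := fun n => ⟨a s⁻¹ n, hNa s⁻¹ n n.2⟩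
      left_inv := fun n => Subtype.ext (by
        show a s⁻¹ (a s n) = n
        rw [← MulAut.mul_apply, ← map_mul, inv_mul_cancel, map_one]
        rfl)
      right_inv := fun n => Subtype.ext (by
        show a s (a s⁻¹ n) = n
        rw [← MulAut.mul_apply, ← map_mul, mul_inv_cancel, map_one]
        rfl)
      map_mul' := fun x y => Subtype.ext (by simp) }
  map_one' := by
    ext n
    simp
  map_mul' s t := by
    ext n
    simp

theorem resN_apply (a : S →* MulAut G) (N : Subgroup G) (hNa : ∀ s, ∀ n ∈ N, a s n ∈ N) (s : S)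
    (n : N) : ((resN a N hNa s n : N) : G) = a s n := rfl

theorem resN_inv_apply (a : S →* MulAut G) (N : Subgroup G) (hNa : ∀ s, ∀ n ∈ N, a s n ∈ N) (s : S)
    (n : N) : (((resN a N hNa s)⁻¹ n : N) : G) = a s⁻¹ n := rfl

theorem conjNormal_inv_apply (N : Subgroup G) [N.Normal] (g : G) (n : N) :
    (((MulAut.conjNormal g : MulAut N)⁻¹ n : N) : G) = g⁻¹ * n * g := by
  rw [← map_inv, MulAut.conjNormal_apply]
  simp

/-- **An invariant character has an invariant constituent.** -/
theorem exists_inv_constituent (a : S →* MulAut G) (N : Subgroup G) [hN : N.Normal] [Fintype N]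
    (hNa : ∀ s, ∀ n ∈ N, a s n ∈ N) (hcop : N.index.Coprime (Nat.card S))
    (hs : Group.IsSolvable S ∨ Group.IsSolvable (G ⧸ N)) (χ : IrrCharacter G)
    (hinv : ∀ s g, (χ : G → ℂ) (a s g) = (χ : G → ℂ) g) :
    ∃ θ : IrrCharacter N, classInner (fun n : N => (χ : G → ℂ) n) (θ : N → ℂ) ≠ 0 ∧
      ∀ s (n : N), (θ : N → ℂ) ⟨a s n, hNa s n n.2⟩ = (θ : N → ℂ) n := by
  have hχ := χ.2
  have hχc := IsIrrCharacter.isCharacter hχ
  let f : N → ℂ := fun n : N => (χ : G → ℂ) n
  let φG : G →* Equiv.Perm (IrrCharacter N) := actAut.comp (MulAut.conjNormal (H := N))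
  let φS : S →* Equiv.Perm (IrrCharacter N) := actAut.comp (resN a N hNa)
  let A := φG.range
  let P := φS.range
  have hNker : N ≤ φG.ker := by
    intro n hn
    rw [MonoidHom.mem_ker]
    ext θ : 1
    apply Subtype.ext
    funext m
    show (θ : N → ℂ) ((MulAut.conjNormal n : MulAut N)⁻¹ m) = (θ : N → ℂ) m
    have h1 : (MulAut.conjNormal n : MulAut N)⁻¹ m = (⟨n, hn⟩ : N)⁻¹ * m * (⟨n, hn⟩ : N)⁻¹⁻¹ := by
      apply Subtype.ext
      rw [conjNormal_inv_apply]
      simp
    rw [h1]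
    exact isClassFunction_of_isCharacter (IsIrrCharacter.isCharacter θ.2) m _
  have hcA : Nat.card A ∣ N.index := by
    have h1 : φG.ker.index = Nat.card φG.range := Subgroup.index_ker φG
    show Nat.card φG.range ∣ _
    rw [← h1]
    exact Subgroup.index_dvd_of_le hNker
  have hcP : Nat.card P ∣ Nat.card S := by
    have h1 : φS.ker.index = Nat.card φS.range := Subgroup.index_ker φS
    show Nat.card φS.range ∣ _
    rw [← h1]
    exact Subgroup.index_dvd_card _
  have hcop' : (Nat.card A).Coprime (Nat.card P) :=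
    Nat.Coprime.coprime_dvd_left hcA (Nat.Coprime.coprime_dvd_right hcP hcop)
  have hs' : Group.IsSolvable A ∨ Group.IsSolvable P := by
    rcases hs with hs | hs
    · right
      exact Group.isSolvable_of_surjective φS.rangeRestrict_surjective
    · left
      let g : G ⧸ N →* A := QuotientGroup.lift N φG.rangeRestrict (by
        intro x hx
        apply Subtype.ext
        exact hNker hx)
      refine Group.isSolvable_of_surjective (f := g) ?_
      rintro ⟨_, y, rfl⟩
      exact ⟨(y : G ⧸ N), rfl⟩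
  have hPA : ∀ p ∈ P, ∀ b ∈ A, p * b * p⁻¹ ∈ A := by
    rintro _ ⟨s, rfl⟩ _ ⟨g, rfl⟩
    refine ⟨a s g, ?_⟩
    show actAut (MulAut.conjNormal (a s g)) = actAut (resN a N hNa s) *
      actAut (MulAut.conjNormal g) * (actAut (resN a N hNa s))⁻¹
    rw [← map_inv, ← map_mul, ← map_mul]
    congr 1
    ext n
    show a s g * n * (a s g)⁻¹ = a s (g * a s⁻¹ n * g⁻¹)
    have h2 : a s⁻¹ (n : G) = (a s)⁻¹ n := by rw [map_inv]
    have h : a s ((a s)⁻¹ (n : G)) = n := MulAut.apply_inv_self _ _ _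
    rw [h2, map_mul, map_mul, map_inv (a s) g, h]
  have hfG : ∀ (g : G) (m : N), f ((MulAut.conjNormal g : MulAut N) m) = f m := by
    intro g m
    show (χ : G → ℂ) (((MulAut.conjNormal g : MulAut N) m : N) : G) = _
    rw [MulAut.conjNormal_apply]
    exact isClassFunction_of_isCharacter hχc (m : G) g
  have hfS : ∀ (s : S) (m : N), f ((resN a N hNa s) m) = f m := fun s m => hinv s m
  obtain ⟨θ₀, hθ₀⟩ := Cfsg.Agent.Lib.CoprimeDeg.exists_constituent N hχc (irr_degree_ne_zero hχ)
  let St : Subgroup (Equiv.Perm (IrrCharacter N)) :=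
    { carrier := {x | ∀ θ : IrrCharacter N, classInner f (x θ : N → ℂ) = classInner f (θ : N → ℂ)}
      mul_mem' := fun {x y} hx hy θ => by
        show classInner f (x (y θ) : N → ℂ) = _
        rw [hx, hy]
      one_mem' := fun θ => rfl
      inv_mem' := fun {x} hx θ => by
        have h0 : x (x⁻¹ θ) = θ := by simp
        have := hx (x⁻¹ θ)
        rw [h0] at this
        exact this.symm }
  have hASt : A ≤ St := by
    rintro _ ⟨g, rfl⟩ θ
    exact classInner_actAut _ (hfG g) θ
  have hPSt : P ≤ St := by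
    rintro _ ⟨s, rfl⟩ θ
    exact classInner_actAut _ (hfS s) θ
  have hSup : A ⊔ P ≤ St := sup_le hASt hPSt
  have htr : ∀ x ∈ A ⊔ P, ∃ b ∈ A, x θ₀ = b θ₀ := by
    intro x hx
    have h1 : classInner f (x θ₀ : N → ℂ) ≠ 0 := by
      rw [hSup hx θ₀]
      exact hθ₀
    obtain ⟨g, hg⟩ := exists_conj_of_constituents N hN hχ θ₀.2 (x θ₀).2 hθ₀ h1
    refine ⟨φG g⁻¹, ⟨g⁻¹, rfl⟩, Subtype.ext ?_⟩
    rw [hg]
    funext m
    show (θ₀ : N → ℂ) ⟨g * m * g⁻¹, _⟩ = (θ₀ : N → ℂ) ((MulAut.conjNormal g⁻¹ : MulAut N)⁻¹ m)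
    refine congrArg (θ₀ : N → ℂ) (Subtype.ext ?_)
    rw [conjNormal_inv_apply]
    simp
  obtain ⟨x, hx, hfix⟩ := exists_fixed_of_perm A P hPA hcop' hs' θ₀ htr
  refine ⟨x θ₀, ?_, fun s n => ?_⟩
  · have h1 : classInner f (x θ₀ : N → ℂ) = _ := hSup hx θ₀
    show classInner f _ ≠ 0
    rw [h1]
    exact hθ₀
  · have h1 := hfix (φS s⁻¹) ⟨s⁻¹, rfl⟩
    have h2 := congrFun (congrArg Subtype.val h1) n
    have h3 : (φS s⁻¹ (x θ₀) : N → ℂ) n = (x θ₀ : N → ℂ) ((resN a N hNa s⁻¹)⁻¹ n) := rfl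
    rw [h3] at h2
    rw [← h2]
    refine congrArg (x θ₀ : N → ℂ) (Subtype.ext ?_)
    rw [resN_inv_apply]
    simp

end Constituent

end Cfsg.Agent.Lib.GlaubFix
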