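import Mathlib
import Cfsg.Agent.Lib.RangeP0
import Cfsg.Agent.Lib.BlockMajor
import Cfsg.Agent.Lib.BlockNormal
import Cfsg.Agent.Lib.SmallGroups2
import Cfsg.Agent.Lib.BlkOrth

/-!
# The form of a principal block with Sylow subgroups of order `p`

The restrictions to `p`-regular elements of the members of the principal block are integer combinations of
those of the nonexceptional characters, with Gram matrix `δ - (m / p) ε ε'`.
-/

set_option autoImplicit false
set_option linter.unusedSectionVars false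
set_option linter.unusedVariables false
set_option linter.style.haveILetI false

namespace Cfsg.Agent.Lib.GramP1

open Cfsg Cfsg.Agent.Lib.CharBasic Cfsg.Agent.Lib.CharInd Cfsg.Agent.Lib.CharIntegrality
open Cfsg.Agent.Lib.BlockLocal Cfsg.Agent.Lib.BlockIdem Cfsg.Agent.Lib.BlockQ
open Cfsg.Agent.Lib.BlockOrtho
open scoped ComplexConjugate

universe u

variable {K : Type u} [Group K] [Fintype K] {p : ℕ} [hpF : Fact p.Prime] {M : Ideal AlgInt}

/-- The data of the lattice of the principal block. -/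
def GramData (p : ℕ) (M : Ideal AlgInt) (K : Type u) [Group K] [Fintype K] (τ : ℕ) : Prop :=
  ∃ (F : Finset (IrrCharacter K)) (ε : IrrCharacter K → ℤ) (m : ℕ),
    F ⊆ bF (principalBlock M K) ∧ 0 < F.card ∧ (∀ χ ∈ F, ε χ = 1 ∨ ε χ = -1) ∧ τ = 1 + F.card * m ∧
    (m ≠ 0 ∨ F.card ≤ 1) ∧
    (∀ ψ ∈ bF (principalBlock M K), ∃ c : IrrCharacter K → ℤ, ∀ g : K, ¬ p ∣ orderOf g →
      (ψ : K → ℂ) g = ∑ χ ∈ F, (c χ : ℂ) * (χ : K → ℂ) g) ∧
    (∀ χ ∈ F, ∀ χ' ∈ F, (τ : ℂ) * classInner (pRegularPart p (χ : K → ℂ)) (χ' : K → ℂ) =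
      (if χ = χ' then (τ : ℂ) else 0) - (m : ℂ) * (ε χ : ℂ) * (ε χ' : ℂ))

/-- The case of a `p'`-group. -/
theorem gramData_one (hM : IsPModular p M) (hK : ¬ p ∣ Nat.card K) : GramData p M K 1 := by
  classical
  have hMp := hM.2.1.isPrime
  refine ⟨{Cfsg.Agent.Lib.BlockNormal.irrOne K}, fun _ => 1, 0, ?_, by simp, by simp, by simp,
    by simp, ?_, ?_⟩
  · intro χ hχ
    rw [Finset.mem_singleton] at hχ
    rw [hχ, mem_bF]
    exact Cfsg.Agent.Lib.BlockNormal.irrOne_mem_principalBlock M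
  · intro ψ hψ
    refine ⟨fun _ => (charDegree (ψ : K → ℂ) : ℤ), fun g hg => ?_⟩
    rw [Finset.sum_singleton]
    have hN : ¬ p ∣ Nat.card (⊤ : Subgroup K) := by
      rwa [Nat.card_congr Subgroup.topEquiv.toEquiv]
    have h1 := Cfsg.Agent.Lib.BlockNormal.eq_of_mem_principalBlock hM (⊤ : Subgroup K) hN ψ
      (mem_bF.mp hψ) g (Subgroup.mem_top g)
    rw [h1, Cfsg.Agent.Lib.CharKernel.one_eq_charDegree (IsIrrCharacter.isCharacter ψ.2)]
    simp [Cfsg.Agent.Lib.BlockNormal.irrOne]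
  · intro χ hχ χ' hχ'
    rw [Finset.mem_singleton] at hχ hχ'
    subst hχ hχ'
    have h1 : pRegularPart p (Cfsg.Agent.Lib.BlockNormal.irrOne K : K → ℂ) =
        (Cfsg.Agent.Lib.BlockNormal.irrOne K : K → ℂ) := by
      funext g
      rw [pRegularPart_of_reg]
      exact fun h => hK (h.trans (orderOf_dvd_natCard g))
    rw [h1, classInner_irr_self (Cfsg.Agent.Lib.BlockNormal.irrOne K).2]
    simp

/-- All elements of a `p`-singular class take the prescribed value. -/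
theorem value_of_sing (P : Sylow p K) (hP : Nat.card P = p) {χ : K → ℂ} (hχ : IsClassFunction K χ)
    {a : ℂ} (h : ∀ x : K, x ∈ (P : Subgroup K) → x ≠ 1 → ∀ y : K,
      y ∈ Subgroup.centralizer ((P : Subgroup K) : Set K) → ¬ p ∣ orderOf y → χ (x * y) = a)
    {g : K} (hg : p ∣ orderOf g) : χ g = a := by
  classical
  have hp := hpF.out
  obtain ⟨w, hw⟩ := Cfsg.Agent.Lib.BlkOrth.exists_isPPart hp g
  have hw1 : w ≠ 1 := fun h1 => ((Cfsg.Agent.Lib.BlkOrth.pPart_regular_iff hp hw).mpr h1) hg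
  obtain ⟨v, hwv, hc, ⟨k, hk⟩, hreg⟩ := hw
  have hzg : IsPGroup p (Subgroup.zpowers w) := by
    apply IsPGroup.of_card (n := k)
    rw [Nat.card_zpowers, hk]
  obtain ⟨Q, hQ⟩ := hzg.exists_le_sylow
  obtain ⟨c, hcQ⟩ := MulAction.exists_smul_eq K Q P
  have hwQ : w ∈ (Q : Subgroup K) := hQ (Subgroup.mem_zpowers w)
  have hu : c * w * c⁻¹ ∈ (P : Subgroup K) := by
    rw [← hcQ, Sylow.coe_subgroup_smul]
    exact Subgroup.smul_mem_pointwise_smul w (MulAut.conj c) _ hwQ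
  have hu1 : c * w * c⁻¹ ≠ 1 := by
    intro h
    apply hw1
    have := congrArg (fun z => c⁻¹ * z * c) h
    simpa [mul_assoc] using this
  have hyc : c * v * c⁻¹ ∈ Subgroup.centralizer ((P : Subgroup K) : Set K) := by
    rw [← Cfsg.Agent.Lib.RangeP0.star_of_prime hp hP _ hu hu1,
      Subgroup.mem_centralizer_singleton_iff]
    have h1 : w * v = v * w := hc
    calc c * v * c⁻¹ * (c * w * c⁻¹) = c * (v * w) * c⁻¹ := by group
      _ = c * (w * v) * c⁻¹ := by rw [h1]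
      _ = _ := by group
  have hregy : ¬ p ∣ orderOf (c * v * c⁻¹) := by
    have : orderOf (c * v * c⁻¹) = orderOf v := by
      have := MulEquiv.orderOf_eq (MulAut.conj c) v
      simpa using this
    rwa [this]
  have h1 := h _ hu hu1 _ hyc hregy
  have h2 : c * w * c⁻¹ * (c * v * c⁻¹) = c * g * c⁻¹ := by
    rw [← hwv]
    group
  rw [h2] at h1
  rw [← h1]
  exact (hχ g c).symm

/-- The main case. -/
theorem gramData_p (hM : IsPModular p M) (P : Sylow p K) (hP : Nat.card P = p) : GramData p M K p := by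
  classical
  have hp := hpF.out
  have hMp := hM.2.1.isPrime
  have hpC : (p : ℂ) ≠ 0 := by exact_mod_cast hp.ne_zero
  obtain ⟨X, Y, hXY, hdisj, hcX, hcY, εX, σ, hX, hσ, hYdeg, hYeq, hYrel⟩ :=
    Cfsg.Agent.Lib.RangeP0.principal_main p M hM P hP _ rfl
  set e := (Subgroup.centralizer ((P : Subgroup K) : Set K)).relIndex
    (Subgroup.normalizer ((P : Subgroup K) : Set K)) with he
  have hdvd : e ∣ p - 1 := Cfsg.Agent.Lib.SmallGroups2.relIndex_dvd_of_prime_card P hP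
  set F := bF X with hF
  set G₀ := bF Y with hG
  have hFcard : F.card = e := by
    rw [← hcX, Nat.card_coe_set_eq, Set.ncard_eq_toFinset_card X (Set.toFinite X)]
    rfl
  have hGcard : G₀.card = (p - 1) / e := by
    rw [← hcY, Nat.card_coe_set_eq, Set.ncard_eq_toFinset_card Y (Set.toFinite Y)]
    rfl
  set m := (p - 1) / e with hm
  have hem : e * m = p - 1 := Nat.mul_div_cancel' hdvd
  have hp1 := hp.one_lt
  have hpem : p = 1 + e * m := by omega
  have hm0 : m ≠ 0 := by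
    intro h
    rw [h] at hem
    omega
  have he0 : 0 < e := by
    rcases Nat.eq_zero_or_pos e with h | h
    · rw [h] at hem
      omega
    · exact h
  obtain ⟨θ₀, hθ₀⟩ : G₀.Nonempty := by
    rw [← Finset.card_pos, hGcard]
    exact Nat.pos_of_ne_zero hm0
  have hθ₀Y : θ₀ ∈ Y := mem_bF.mp hθ₀
  have hσC : (σ : ℂ) * (σ : ℂ) = 1 := by
    rcases hσ with h | h <;> simp [h]
  -- regular relation
  set S : K → ℂ := fun g => ∑ χ ∈ F, (εX χ : ℂ) * (χ : K → ℂ) g with hS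
  have hrel : ∀ θ ∈ Y, ∀ g : K, ¬ p ∣ orderOf g → (θ : K → ℂ) g = (σ : ℂ) * S g := by
    intro θ hθ g hg
    have h1 := hYrel θ hθ g hg
    rw [finsum_mem_eq_sum_bF] at h1
    simp only [hS]
    rw [← h1, ← mul_assoc, hσC, one_mul]
  -- singular values of the nonexceptional characters
  have hXsing : ∀ χ ∈ X, ∀ g : K, p ∣ orderOf g → (χ : K → ℂ) g = (εX χ : ℂ) := by
    intro χ hχ g hg
    exact value_of_sing P hP (isClassFunction_of_isCharacter (IsIrrCharacter.isCharacter χ.2))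
      (hX χ hχ).2.2 hg
  -- the sum of the exceptional characters
  set Ys : K → ℂ := fun g => ∑ θ ∈ G₀, (θ : K → ℂ) g with hYs
  have hreg1 : ¬ p ∣ orderOf (1 : K) := by simp [hp.one_lt.ne']
  have hbF : bF (principalBlock M K) = F ∪ G₀ := by
    ext χ
    simp only [mem_bF, Finset.mem_union, hF, hG]
    rw [hXY]
    rfl
  have hFG : Disjoint F G₀ := by
    rw [Finset.disjoint_left]
    intro χ h1 h2
    exact Set.disjoint_left.mp hdisj (mem_bF.mp h1) (mem_bF.mp h2)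
  have hYsing : ∀ g : K, p ∣ orderOf g → Ys g = - (σ : ℂ) := by
    intro g hg
    have h1 := Cfsg.Agent.Lib.BlkOrth.block_orth_weak hM
      (Cfsg.Agent.Lib.BlockNormal.isPBlock_principalBlock M) hreg1 hg
    rw [finsum_mem_eq_sum_bF, hbF, Finset.sum_union hFG] at h1
    have h2 : ∑ χ ∈ F, (χ : K → ℂ) 1 * conj ((χ : K → ℂ) g) = S 1 := by
      simp only [hS]
      refine Finset.sum_congr rfl fun χ hχ => ?_
      rw [hXsing χ (mem_bF.mp hχ) g hg, map_intCast]
      ring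
    have h3 : ∑ θ ∈ G₀, (θ : K → ℂ) 1 * conj ((θ : K → ℂ) g) = (θ₀ : K → ℂ) 1 * conj (Ys g) := by
      simp only [hYs]
      rw [map_sum, Finset.mul_sum]
      refine Finset.sum_congr rfl fun θ hθ => ?_
      rw [hYeq θ (mem_bF.mp hθ) θ₀ hθ₀Y 1 hreg1]
    rw [h2, h3] at h1
    have h4 : S 1 = (σ : ℂ) * (θ₀ : K → ℂ) 1 := by
      rw [hrel θ₀ hθ₀Y 1 hreg1, ← mul_assoc, hσC, one_mul]
    rw [h4] at h1
    have h5 : (θ₀ : K → ℂ) 1 ≠ 0 := irr_one_ne_zero' θ₀.2
    have h6 : (θ₀ : K → ℂ) 1 * ((σ : ℂ) + conj (Ys g)) = 0 := by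
      linear_combination h1
    have h7 := (mul_eq_zero.mp h6).resolve_left h5
    have h8 : conj (Ys g) = - (σ : ℂ) := by linear_combination h7
    have h9 := congrArg conj h8
    rw [Complex.conj_conj, map_neg, map_intCast] at h9
    exact h9
  -- the orthogonal elements
  set Ψ : IrrCharacter K → K → ℂ := fun χ' g => (χ' : K → ℂ) g +
    ((εX χ' : ℂ) * (σ : ℂ)) * Ys g with hΨ
  have hεC : ∀ χ ∈ F, (εX χ : ℂ) * (εX χ : ℂ) = 1 := by
    intro χ hχ
    rcases (hX χ (mem_bF.mp hχ)).1 with h | h <;> simp [h]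
  have hΨsing : ∀ χ' ∈ F, ∀ g : K, p ∣ orderOf g → Ψ χ' g = 0 := by
    intro χ' hχ' g hg
    simp only [hΨ]
    rw [hYsing g hg, hXsing χ' (mem_bF.mp hχ') g hg]
    linear_combination (-(εX χ' : ℂ)) * hσC
  have hYsreg : ∀ g : K, ¬ p ∣ orderOf g → Ys g = (m : ℂ) * ((σ : ℂ) * S g) := by
    intro g hg
    simp only [hYs]
    rw [Finset.sum_congr rfl (fun θ hθ => hrel θ (mem_bF.mp hθ) g hg), Finset.sum_const, hGcard,
      nsmul_eq_mul]
  have hΨreg : ∀ χ' ∈ F, ∀ g : K, ¬ p ∣ orderOf g → Ψ χ' g =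
      (χ' : K → ℂ) g + ((εX χ' : ℂ) * (m : ℂ)) * S g := by
    intro χ' hχ' g hg
    simp only [hΨ]
    rw [hYsreg g hg]
    linear_combination ((εX χ' : ℂ) * (m : ℂ) * S g) * hσC
  -- orthogonality
  set R : IrrCharacter K → IrrCharacter K → ℂ := fun χ χ' =>
    classInner (pRegularPart p (χ : K → ℂ)) (χ' : K → ℂ) with hR
  have hΨinner : ∀ χ ∈ F, ∀ χ' ∈ F, classInner (χ : K → ℂ) (Ψ χ') = if χ = χ' then 1 else 0 := by
    intro χ hχ χ' hχ'
    have h1 : Ψ χ' = (χ' : K → ℂ) + ((εX χ' : ℂ) * (σ : ℂ)) • ∑ θ ∈ G₀, (θ : K → ℂ) := by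
      funext g
      simp only [hΨ, hYs, Pi.add_apply, Pi.smul_apply, smul_eq_mul, Finset.sum_apply]
    rw [h1, classInner_add_right, classInner_smul_right, classInner_sum_right]
    have h2 : ∑ θ ∈ G₀, classInner (χ : K → ℂ) (θ : K → ℂ) = 0 := by
      refine Finset.sum_eq_zero fun θ hθ => ?_
      apply classInner_irr_ne χ.2 θ.2
      intro h3
      have h4 : χ = θ := Subtype.ext h3
      exact Finset.disjoint_left.mp hFG hχ (h4 ▸ hθ)
    rw [h2, mul_zero, add_zero]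
    by_cases h : χ = χ'
    · rw [if_pos h, h, classInner_irr_self χ'.2]
    · rw [if_neg h]
      exact classInner_irr_ne χ.2 χ'.2 (fun h3 => h (Subtype.ext h3))
  have hE : ∀ χ ∈ F, ∀ χ' ∈ F, R χ χ' + ((εX χ' : ℂ) * (m : ℂ)) * ∑ i ∈ F, (εX i : ℂ) * R χ i =
      if χ = χ' then 1 else 0 := by
    intro χ hχ χ' hχ'
    rw [← hΨinner χ hχ χ' hχ']
    have h1 : classInner (χ : K → ℂ) (Ψ χ') = classInner (pRegularPart p (χ : K → ℂ)) (Ψ χ') := by
      unfold classInner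
      congr 1
      refine Finset.sum_congr rfl fun g _ => ?_
      by_cases hg : p ∣ orderOf g
      · rw [hΨsing χ' hχ' g hg]
        simp
      · rw [pRegularPart_of_reg _ hg]
    rw [h1]
    have h2 : classInner (pRegularPart p (χ : K → ℂ)) (Ψ χ') =
        classInner (pRegularPart p (χ : K → ℂ))
          ((χ' : K → ℂ) + ((εX χ' : ℂ) * (m : ℂ)) • ∑ i ∈ F, (εX i : ℂ) • (i : K → ℂ)) := by
      unfold classInner
      congr 1
      refine Finset.sum_congr rfl fun g _ => ?_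
      by_cases hg : p ∣ orderOf g
      · rw [pRegularPart_of_sing _ hg, zero_mul, zero_mul]
      · rw [hΨreg χ' hχ' g hg]
        simp only [hS, Pi.add_apply, Pi.smul_apply, smul_eq_mul, Finset.sum_apply]
    rw [h2, classInner_add_right, classInner_smul_right, classInner_sum_right]
    simp only [classInner_smul_right, hR, map_mul, map_intCast, map_natCast]
  have hs : ∀ χ ∈ F, (p : ℂ) * ∑ i ∈ F, (εX i : ℂ) * R χ i = (εX χ : ℂ) := by
    intro χ hχ
    have h1 : ∑ χ' ∈ F, (εX χ' : ℂ) * (R χ χ' + ((εX χ' : ℂ) * (m : ℂ)) *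
        ∑ i ∈ F, (εX i : ℂ) * R χ i) = ∑ χ' ∈ F, (εX χ' : ℂ) * (if χ = χ' then 1 else 0) :=
      Finset.sum_congr rfl fun χ' hχ' => by rw [hE χ hχ χ' hχ']
    have h2 : ∑ χ' ∈ F, (εX χ' : ℂ) * (if χ = χ' then 1 else 0) = (εX χ : ℂ) := by
      rw [Finset.sum_eq_single χ]
      · simp
      · intro b _ hb
        rw [if_neg (Ne.symm hb), mul_zero]
      · intro h
        exact absurd hχ h
    rw [h2] at h1
    set s₀ := ∑ i ∈ F, (εX i : ℂ) * R χ i with hs₀
    have h3 : ∑ χ' ∈ F, (εX χ' : ℂ) * (R χ χ' + ((εX χ' : ℂ) * (m : ℂ)) * s₀) =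
        s₀ + (F.card : ℂ) * (m : ℂ) * s₀ := by
      have h4 : ∀ χ' ∈ F, (εX χ' : ℂ) * (R χ χ' + ((εX χ' : ℂ) * (m : ℂ)) * s₀) =
          (εX χ' : ℂ) * R χ χ' + (m : ℂ) * s₀ := by
        intro χ' hχ'
        linear_combination ((m : ℂ) * s₀) * hεC χ' hχ'
      rw [Finset.sum_congr rfl h4, Finset.sum_add_distrib, Finset.sum_const, nsmul_eq_mul]
      ring
    rw [h3] at h1
    rw [← h1]
    have h5 : (p : ℂ) = 1 + (F.card : ℂ) * (m : ℂ) := by
      rw [hFcard]
      exact_mod_cast hpem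
    rw [h5]
    ring
  refine ⟨F, εX, m, ?_, ?_, ?_, ?_, Or.inl hm0, ?_, ?_⟩
  · rw [hbF]
    exact Finset.subset_union_left
  · rw [hFcard]
    exact he0
  · intro χ hχ
    exact (hX χ (mem_bF.mp hχ)).1
  · rw [hFcard]
    exact hpem
  · intro ψ hψ
    have hψ' : ψ ∈ F ∪ G₀ := hbF ▸ hψ
    rcases Finset.mem_union.mp hψ' with h | h
    · refine ⟨fun χ => if χ = ψ then 1 else 0, fun g hg => ?_⟩
      rw [Finset.sum_eq_single ψ]
      · simp
      · intro b _ hb
        simp [hb]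
      · intro h'
        exact absurd h h'
    · refine ⟨fun χ => σ * εX χ, fun g hg => ?_⟩
      rw [hrel ψ (mem_bF.mp h) g hg]
      simp only [hS]
      rw [Finset.mul_sum]
      refine Finset.sum_congr rfl fun χ _ => ?_
      push_cast
      ring
  · intro χ hχ χ' hχ'
    have h1 := hE χ hχ χ' hχ'
    have h2 := hs χ hχ
    have h3 : (p : ℂ) * R χ χ' = (p : ℂ) * (if χ = χ' then 1 else 0) -
        ((εX χ' : ℂ) * (m : ℂ)) * ((p : ℂ) * ∑ i ∈ F, (εX i : ℂ) * R χ i) := by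
      rw [← h1]
      ring
    rw [h2] at h3
    show (p : ℂ) * R χ χ' = _
    rw [h3]
    by_cases h : χ = χ'
    · simp only [if_pos h]
      ring
    · simp only [if_neg h]
      ring

end Cfsg.Agent.Lib.GramP1
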