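import Mathlib

/-!
# Graphs of diameter two

A graph in which any two distinct vertices are adjacent or have a common neighbour, and which
has a pair of distinct non-adjacent vertices, is connected of diameter exactly two.
-/

set_option autoImplicit false

namespace Cfsg.Agent.Lib.GraphDiam2

variable {V : Type*}

theorem connected_diam_two (G : SimpleGraph V) [Nonempty V]
    (h : ∀ u v, u ≠ v → G.Adj u v ∨ ∃ w, G.Adj u w ∧ G.Adj w v)
    (u₀ v₀ : V) (hne : u₀ ≠ v₀) (hna : ¬ G.Adj u₀ v₀) :
    G.Connected ∧ G.diam = 2 := by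
  have hwalk : ∀ u v, ∃ p : G.Walk u v, p.length ≤ 2 := by
    intro u v
    by_cases huv : u = v
    · subst huv
      exact ⟨SimpleGraph.Walk.nil, by simp⟩
    · rcases h u v huv with h1 | ⟨w, h1, h2⟩
      · exact ⟨SimpleGraph.Walk.cons h1 SimpleGraph.Walk.nil, by simp⟩
      · exact ⟨SimpleGraph.Walk.cons h1 (SimpleGraph.Walk.cons h2 SimpleGraph.Walk.nil), by simp⟩
  have hedist : ∀ u v, G.edist u v ≤ 2 := by
    intro u v
    obtain ⟨p, hp⟩ := hwalk u v
    refine (SimpleGraph.Walk.edist_le p).trans ?_
    exact_mod_cast hp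
  have hediam : G.ediam ≤ 2 := SimpleGraph.ediam_le_of_edist_le hedist
  have htop : G.ediam ≠ ⊤ := by
    intro h3
    rw [h3] at hediam
    exact absurd hediam (by decide)
  have hconn : G.Connected := SimpleGraph.connected_of_ediam_ne_top htop
  refine ⟨hconn, ?_⟩
  have h1 : G.diam ≤ 2 := by
    unfold SimpleGraph.diam
    have := ENat.toNat_le_toNat hediam (by decide)
    simpa using this
  have h2 : G.dist u₀ v₀ ≤ G.diam := SimpleGraph.dist_le_diam htop
  have h3 : 2 ≤ G.dist u₀ v₀ := by
    obtain ⟨p, hp⟩ := (hconn.preconnected u₀ v₀).exists_walk_length_eq_dist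
    by_contra h4
    have h5 : p.length ≤ 1 := by omega
    cases p with
    | nil => exact hne rfl
    | cons h6 q =>
      cases q with
      | nil => exact hna h6
      | cons h7 q' =>
        simp at h5
  omega

end Cfsg.Agent.Lib.GraphDiam2
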