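import Mathlib
import Cfsg.Agent.Lib.CycArray

/-!
# A small coherence problem: rigid configurations of vectors in `ℤ^E`
-/

set_option autoImplicit false

namespace Cfsg.Agent.Lib.H108Coh

open Matrix Cfsg.Agent.Lib.CycArray

variable {E : Type*} [Fintype E]

/-- Two norm-two vectors with inner product one share a unit. -/
theorem tri2 {D₁ D₂ : E → ℤ} (h1 : D₁ ⬝ᵥ D₁ = 2) (h2 : D₂ ⬝ᵥ D₂ = 2) (h12 : D₁ ⬝ᵥ D₂ = 1) :
    ∃ p q s : E → ℤ, IsU p ∧ IsU q ∧ IsU s ∧ p ⬝ᵥ q = 0 ∧ p ⬝ᵥ s = 0 ∧ q ⬝ᵥ s = 0 ∧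
      D₁ = p + q ∧ D₂ = p + s := by
  obtain ⟨a, b, ha, hb, hab, rfl⟩ := decomp2 h1
  have hB := bessel2 ha hb hab D₂
  rw [h2] at hB
  have hs : D₂ ⬝ᵥ a + D₂ ⬝ᵥ b = 1 := by
    rw [← dotProduct_add, dotProduct_comm]
    exact h12
  have aux : ∀ p q : E → ℤ, IsU p → IsU q → p ⬝ᵥ q = 0 → D₂ ⬝ᵥ p = 1 → D₂ ⬝ᵥ q = 0 →
      ∃ s, IsU s ∧ p ⬝ᵥ s = 0 ∧ q ⬝ᵥ s = 0 ∧ D₂ = p + s := by
    intro p q hp hq hpq h1 h0
    refine ⟨D₂ - p, ?_, ?_, ?_, by abel⟩
    · unfold IsU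
      simp only [sub_dotProduct, dotProduct_sub]
      rw [dotProduct_comm p D₂, show p ⬝ᵥ p = 1 from hp]
      omega
    · rw [dotProduct_sub, dotProduct_comm p D₂, show p ⬝ᵥ p = 1 from hp]
      omega
    · rw [dotProduct_sub, dotProduct_comm q D₂, dotProduct_comm q p]
      omega
  rcases int2 _ _ hs (by nlinarith) with ⟨h3, h4⟩ | ⟨h3, h4⟩
  · obtain ⟨s, hs1, hs2, hs3, hs4⟩ := aux a b ha hb hab h3 h4
    exact ⟨a, b, s, ha, hb, hs1, hab, hs2, hs3, rfl, hs4⟩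
  · obtain ⟨s, hs1, hs2, hs3, hs4⟩ := aux b a hb ha (by rw [dotProduct_comm]; exact hab) h4 h3
    exact ⟨b, a, s, hb, ha, hs1, by rw [dotProduct_comm]; exact hab, hs2, hs3, by abel, hs4⟩

/-- Three vectors of norm four with inner products three. -/
theorem tri_C {C : Fin 3 → E → ℤ} (hCC : ∀ j k, C j ⬝ᵥ C k = if j = k then 4 else 3) :
    ∃ (c : E → ℤ) (Z : Fin 3 → E → ℤ), (∀ i k, Z i ⬝ᵥ Z k = if i = k then 1 else 0) ∧
      ∀ j, C j = c + Z j := by
  have h00 := hCC 0 0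
  have h01 := hCC 0 1
  have h02 := hCC 0 2
  have h10 := hCC 1 0
  have h11 := hCC 1 1
  have h12 := hCC 1 2
  have h20 := hCC 2 0
  have h22 := hCC 2 2
  simp at h00 h01 h02 h10 h11 h12 h20 h22
  obtain ⟨p, q, s, hp, hq, hs, hpq, hps, hqs, h1, h2⟩ := tri2 (D₁ := C 0 - C 1) (D₂ := C 0 - C 2)
    (by simp only [sub_dotProduct, dotProduct_sub]; omega)
    (by simp only [sub_dotProduct, dotProduct_sub]; omega)
    (by simp only [sub_dotProduct, dotProduct_sub]; omega)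
  have hqp : q ⬝ᵥ p = 0 := by rw [dotProduct_comm]; exact hpq
  have hsp : s ⬝ᵥ p = 0 := by rw [dotProduct_comm]; exact hps
  have hsq : s ⬝ᵥ q = 0 := by rw [dotProduct_comm]; exact hqs
  have hp1 : p ⬝ᵥ p = 1 := hp
  have hq1 : q ⬝ᵥ q = 1 := hq
  have hs1 : s ⬝ᵥ s = 1 := hs
  refine ⟨C 0 - p, ![p, -q, -s], ?_, ?_⟩
  · intro i k
    fin_cases i <;> fin_cases k <;> simp [hpq, hps, hqs, hqp, hsp, hsq, hp1, hq1, hs1]
  · intro j
    fin_cases j
    · simp
    · have : C 1 = C 0 - (p + q) := by rw [← h1]; abel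
      simp only [Matrix.cons_val]
      show C 1 = _
      rw [this]
      abel
    · have : C 2 = C 0 - (p + s) := by rw [← h2]; abel
      simp only [Matrix.cons_val]
      show C 2 = _
      rw [this]
      abel

/-- The structure constant. -/
theorem y_cases {C : Fin 3 → E → ℤ} (hCC : ∀ j k, C j ⬝ᵥ C k = if j = k then 4 else 3)
    {c : E → ℤ} {Z : Fin 3 → E → ℤ} (hZ : ∀ i k, Z i ⬝ᵥ Z k = if i = k then 1 else 0)
    (hC : ∀ j, C j = c + Z j) :
    ∃ y : ℤ, (∀ j, c ⬝ᵥ Z j = y) ∧ c ⬝ᵥ c = 3 - 2 * y ∧ (y = 0 ∨ y = -1) := by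
  have h1 : ∀ j, c ⬝ᵥ c + 2 * c ⬝ᵥ Z j + 1 = 4 := by
    intro j
    have := hCC j j
    rw [hC j] at this
    simp only [add_dotProduct, dotProduct_add, if_true] at this
    rw [dotProduct_comm (Z j) c, hZ j j] at this
    simp only [if_true] at this
    omega
  have hB := bessel Z hZ c
  rw [Fin.sum_univ_three] at hB
  have e1 := h1 0
  have e2 := h1 1
  have e3 := h1 2
  have e12 : c ⬝ᵥ Z 1 = c ⬝ᵥ Z 0 := by omega
  have e13 : c ⬝ᵥ Z 2 = c ⬝ᵥ Z 0 := by omega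
  refine ⟨c ⬝ᵥ Z 0, ?_, by omega, ?_⟩
  · intro j
    fin_cases j
    · rfl
    · exact e12
    · exact e13
  · rw [e12, e13] at hB
    set y := c ⬝ᵥ Z 0
    have hn : c ⬝ᵥ c = 3 - 2 * y := by omega
    rw [hn] at hB
    have hy1 : y ≤ 0 := by nlinarith [sq_nonneg (y - 1), sq_nonneg y]
    have hy2 : -1 ≤ y := by nlinarith [sq_nonneg (y + 1), sq_nonneg y]
    omega

theorem exists_ne3 : ∀ i : Fin 3, ∃ k : Fin 3, i ≠ k := by decide

/-- The `N`'s are orthogonal to the `Z`'s. -/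
theorem Z_N_zero {c : E → ℤ} {Z N : Fin 3 → E → ℤ}
    (hZ : ∀ i k, Z i ⬝ᵥ Z k = if i = k then 1 else 0)
    (hNN : ∀ i k, N i ⬝ᵥ N k = if i = k then 3 else 1) (hCN : ∀ j i, (c + Z j) ⬝ᵥ N i = 2) :
    ∀ j i, Z j ⬝ᵥ N i = 0 := by
  have hconst : ∀ j i, Z j ⬝ᵥ N i = 2 - c ⬝ᵥ N i := by
    intro j i
    have := hCN j i
    rw [add_dotProduct] at this
    omega
  have h01 : Z 0 ⬝ᵥ Z 1 = 0 := by simpa using hZ 0 1
  have h02 : Z 0 ⬝ᵥ Z 2 = 0 := by simpa using hZ 0 2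
  have h12 : Z 1 ⬝ᵥ Z 2 = 0 := by simpa using hZ 1 2
  have h10 : Z 1 ⬝ᵥ Z 0 = 0 := by simpa using hZ 1 0
  have h20 : Z 2 ⬝ᵥ Z 0 = 0 := by simpa using hZ 2 0
  have h21 : Z 2 ⬝ᵥ Z 1 = 0 := by simpa using hZ 2 1
  have h00 : Z 0 ⬝ᵥ Z 0 = 1 := by simpa using hZ 0 0
  have h11 : Z 1 ⬝ᵥ Z 1 = 1 := by simpa using hZ 1 1
  have h22 : Z 2 ⬝ᵥ Z 2 = 1 := by simpa using hZ 2 2
  have hss : (Z 0 + Z 1 + Z 2) ⬝ᵥ (Z 0 + Z 1 + Z 2) = 3 := by
    simp only [add_dotProduct, dotProduct_add]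
    omega
  have hsN : ∀ i, (Z 0 + Z 1 + Z 2) ⬝ᵥ N i = 3 * (2 - c ⬝ᵥ N i) := by
    intro i
    simp only [add_dotProduct]
    rw [hconst 0 i, hconst 1 i, hconst 2 i]
    ring
  intro j i
  rw [hconst j i]
  by_contra hne
  set z := 2 - c ⬝ᵥ N i with hz
  have hB := bessel Z hZ (N i)
  rw [Fin.sum_univ_three, dotProduct_comm (N i) (Z 0), dotProduct_comm (N i) (Z 1),
    dotProduct_comm (N i) (Z 2), hconst 0 i, hconst 1 i, hconst 2 i, hNN i i, if_pos rfl, ← hz] at hB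
  have hzsq : z ^ 2 = 1 := by
    have : 1 ≤ z ^ 2 := by
      have := sq_pos_of_ne_zero hne
      omega
    omega
  have hzero : (N i - z • (Z 0 + Z 1 + Z 2)) ⬝ᵥ (N i - z • (Z 0 + Z 1 + Z 2)) = 0 := by
    simp only [sub_dotProduct, dotProduct_sub, smul_dotProduct, dotProduct_smul, smul_eq_mul]
    rw [dotProduct_comm (N i) (Z 0 + Z 1 + Z 2), hsN i, ← hz, hss, hNN i i, if_pos rfl]
    linear_combination (-3) * hzsq
  have hNi : N i = z • (Z 0 + Z 1 + Z 2) := sub_eq_zero.1 (eq_zero_of_self hzero)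
  obtain ⟨k, hk⟩ := exists_ne3 i
  have h5 := hNN i k
  rw [if_neg hk, hNi, smul_dotProduct, hsN k, smul_eq_mul] at h5
  have h6 : (3 : ℤ) ∣ 1 := ⟨z * (2 - c ⬝ᵥ N k), by rw [← h5]; ring⟩
  omega

/-- Integer patterns. -/
theorem int_a {a b c : ℤ} (h : a + b + c = -1) (hs : a ^ 2 + b ^ 2 + c ^ 2 ≤ 2) :
    (a = -1 ∧ b = 0 ∧ c = 0) ∨ (a = 0 ∧ b = -1 ∧ c = 0) ∨ (a = 0 ∧ b = 0 ∧ c = -1) := by
  have ha : a ≤ 1 := by nlinarith [sq_nonneg b, sq_nonneg c, sq_nonneg (a - 1)]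
  have ha' : -1 ≤ a := by nlinarith [sq_nonneg b, sq_nonneg c, sq_nonneg (a + 1)]
  have hb : b ≤ 1 := by nlinarith [sq_nonneg a, sq_nonneg c, sq_nonneg (b - 1)]
  have hb' : -1 ≤ b := by nlinarith [sq_nonneg a, sq_nonneg c, sq_nonneg (b + 1)]
  obtain rfl : c = -1 - a - b := by omega
  interval_cases a <;> interval_cases b <;> first | omega | (exfalso; norm_num at hs)

theorem int_b {a b c : ℤ} (h : a + b + c = -2) (hs : a ^ 2 + b ^ 2 + c ^ 2 ≤ 3) :
    (a = 0 ∧ b = -1 ∧ c = -1) ∨ (a = -1 ∧ b = 0 ∧ c = -1) ∨ (a = -1 ∧ b = -1 ∧ c = 0) := by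
  have ha : a ≤ 1 := by nlinarith [sq_nonneg b, sq_nonneg c, sq_nonneg (a - 1)]
  have ha' : -1 ≤ a := by nlinarith [sq_nonneg b, sq_nonneg c, sq_nonneg (a + 1)]
  have hb : b ≤ 1 := by nlinarith [sq_nonneg a, sq_nonneg c, sq_nonneg (b - 1)]
  have hb' : -1 ≤ b := by nlinarith [sq_nonneg a, sq_nonneg c, sq_nonneg (b + 1)]
  obtain rfl : c = -2 - a - b := by omega
  interval_cases a <;> interval_cases b <;> first | omega | (exfalso; norm_num at hs)

/-- The combinatorial core. -/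
theorem comb_core {A B : Fin 3 → E → ℤ} (hA : ∀ i, IsU (A i)) (hB : ∀ i, IsU (B i))
    {σ τ : Fin 3 → Fin 3}
    (h1 : ∀ i k, i ≠ k → A i ⬝ᵥ A k = if σ i = σ k then -1 else 0)
    (h2 : ∀ i k, i ≠ k → B i ⬝ᵥ B k = if τ i = τ k then -1 else 0)
    (h3 : ∀ i, A i ⬝ᵥ B i = if σ i = τ i then 0 else -1)
    (h4 : ∀ i k, i ≠ k → A i ⬝ᵥ B k = if σ i = τ k then 1 else 0) :
    (∀ i, σ i = τ i) ∧ Function.Injective σ := by
  have hτ : Function.Injective τ := by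
    intro i k hik
    by_contra hne
    have e1 := h2 i k hne
    rw [if_pos hik] at e1
    have e2 := eq_neg_of_inner (hB i) (hB k) e1
    have e3 := h3 i
    have e4 := h4 i k hne
    rw [e2, dotProduct_neg, e4, ← hik] at e3
    split_ifs at e3 <;> omega
  have hσ : Function.Injective σ := by
    intro i k hik
    by_contra hne
    have e1 := h1 i k hne
    rw [if_pos hik] at e1
    have e2 := eq_neg_of_inner (hA i) (hA k) e1
    have e3 := h3 k
    have e4 := h4 i k hne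
    rw [e2, neg_dotProduct, e3, hik] at e4
    split_ifs at e4 <;> omega
  refine ⟨?_, hσ⟩
  intro i
  by_contra hne
  have e1 := h3 i
  rw [if_neg hne] at e1
  have e2 := eq_neg_of_inner (hA i) (hB i) e1
  obtain ⟨k, hk⟩ := (Finite.injective_iff_surjective.mp hτ) (σ i)
  have hik : i ≠ k := by
    rintro rfl
    exact hne hk.symm
  have e3 := h4 i k hik
  rw [if_pos hk.symm] at e3
  have e4 := eq_of_inner_one (hA i) (hB k) e3
  have e5 := h2 i k hik
  rw [if_neg (fun h => hik (hτ h))] at e5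
  rw [← e4, e2, dotProduct_neg, show B i ⬝ᵥ B i = 1 from hB i] at e5
  omega

/-- The final structure, given the triple of units. -/
theorem core {l w N : Fin 3 → E → ℤ} (hl : ∀ i k, l i ⬝ᵥ l k = if i = k then 1 else 0)
    (hww : ∀ i k, w i ⬝ᵥ w k = if i = k then 2 else 0)
    (hNN : ∀ i k, N i ⬝ᵥ N k = if i = k then 3 else 1)
    (hwN : ∀ i k, w i ⬝ᵥ N k = if i = k then 0 else 1)
    (hwL : ∀ i, w i ⬝ᵥ (l 0 + l 1 + l 2) = -1) (hNL : ∀ i, N i ⬝ᵥ (l 0 + l 1 + l 2) = -2) :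
    ∃ Λ A B : Fin 3 → E → ℤ, (∀ i, IsU (Λ i)) ∧ (∀ i, IsU (A i)) ∧ (∀ i, IsU (B i)) ∧
      (∀ i, w i = A i - Λ i) ∧ (∀ i, N i = B i - (∑ k, Λ k) + Λ i) := by
  have hwl : ∀ i, ∃ s : Fin 3, ∀ k, w i ⬝ᵥ l k = if k = s then -1 else 0 := by
    intro i
    have h1 := hwL i
    simp only [dotProduct_add] at h1
    have h2 := bessel l hl (w i)
    rw [Fin.sum_univ_three, hww i i, if_pos rfl] at h2
    rcases int_a h1 h2 with ⟨e0, e1, e2⟩ | ⟨e0, e1, e2⟩ | ⟨e0, e1, e2⟩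
    · exact ⟨0, fun k => by fin_cases k <;> simp [e0, e1, e2]⟩
    · exact ⟨1, fun k => by fin_cases k <;> simp [e0, e1, e2]⟩
    · exact ⟨2, fun k => by fin_cases k <;> simp [e0, e1, e2]⟩
  have hNl : ∀ i, ∃ t : Fin 3, ∀ k, N i ⬝ᵥ l k = if k = t then 0 else -1 := by
    intro i
    have h1 := hNL i
    simp only [dotProduct_add] at h1
    have h2 := bessel l hl (N i)
    rw [Fin.sum_univ_three, hNN i i, if_pos rfl] at h2
    rcases int_b h1 h2 with ⟨e0, e1, e2⟩ | ⟨e0, e1, e2⟩ | ⟨e0, e1, e2⟩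
    · exact ⟨0, fun k => by fin_cases k <;> simp [e0, e1, e2]⟩
    · exact ⟨1, fun k => by fin_cases k <;> simp [e0, e1, e2]⟩
    · exact ⟨2, fun k => by fin_cases k <;> simp [e0, e1, e2]⟩
  choose σ hσ using hwl
  choose τ hτ using hNl
  set L := l 0 + l 1 + l 2 with hLdef
  have hLl : ∀ k, l k ⬝ᵥ L = 1 := by
    intro k
    simp only [hLdef, dotProduct_add, hl]
    fin_cases k <;> simp
  have hLL : L ⬝ᵥ L = 3 := by
    nth_rw 1 [hLdef]
    simp only [add_dotProduct, hLl]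
    norm_num
  let A : Fin 3 → E → ℤ := fun i => w i + l (σ i)
  let B : Fin 3 → E → ℤ := fun i => N i + L - l (τ i)
  have hAA : ∀ i k, A i ⬝ᵥ A k = (if i = k then 2 else 0) - (if σ i = σ k then 1 else 0) := by
    intro i k
    simp only [A, add_dotProduct, dotProduct_add]
    rw [dotProduct_comm (l (σ i)) (w k), hww, hσ, hσ, hl]
    by_cases h : σ i = σ k
    · simp only [h, if_true]
      ring
    · simp only [h, Ne.symm h, if_false]
      ring
  have hBB : ∀ i k, B i ⬝ᵥ B k = (if i = k then 3 else 1) - 1 -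
      (if τ i = τ k then 1 else 0) := by
    intro i k
    simp only [B, add_dotProduct, dotProduct_add, sub_dotProduct, dotProduct_sub]
    rw [dotProduct_comm L (N k), dotProduct_comm L (l (τ k)), dotProduct_comm (l (τ i)) (N k),
      hNN, hNL, hNL, hLL, hLl, hLl, hτ, hτ, hl]
    by_cases h : τ i = τ k
    · simp only [h, if_true]
      ring
    · simp only [h, Ne.symm h, if_false]
      ring
  have hAB : ∀ i k, A i ⬝ᵥ B k = (if i = k then 0 else 1) - (if σ i = τ k then 0 else 1) := by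
    intro i k
    simp only [A, B, add_dotProduct, dotProduct_add, sub_dotProduct, dotProduct_sub]
    rw [dotProduct_comm (l (σ i)) (N k), hwN, hwL, hσ, hτ, hLl, hl]
    by_cases h : σ i = τ k
    · simp only [h, if_true]
      ring
    · simp only [h, Ne.symm h, if_false]
      ring
  have hAu : ∀ i, IsU (A i) := by
    intro i
    unfold IsU
    rw [hAA]
    simp
  have hBu : ∀ i, IsU (B i) := by
    intro i
    unfold IsU
    rw [hBB]
    simp
  obtain ⟨hst, hinj⟩ := comb_core (A := A) (B := B) hAu hBu (σ := σ) (τ := τ)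
    (by
      intro i k hik
      rw [hAA, if_neg hik]
      split_ifs <;> norm_num)
    (by
      intro i k hik
      rw [hBB, if_neg hik]
      split_ifs <;> norm_num)
    (by
      intro i
      rw [hAB, if_pos rfl]
      split_ifs <;> norm_num)
    (by
      intro i k hik
      rw [hAB, if_neg hik]
      split_ifs <;> norm_num)
  have hbij : Function.Bijective σ := Finite.injective_iff_bijective.mp hinj
  refine ⟨fun i => l (σ i), A, B, ?_, hAu, hBu, ?_, ?_⟩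
  · intro i
    unfold IsU
    rw [hl]
    simp
  · intro i
    simp [A]
  · intro i
    have h5 : ∑ k, l (σ k) = L := by
      rw [hbij.sum_comp (fun k => l k), Fin.sum_univ_three]
    simp only [h5, B, hst i]
    abel

/-- The main rigidity result. -/
theorem coh (e₀ : E → ℤ) (P N B : Fin 3 → E → ℤ) (he : e₀ ⬝ᵥ e₀ = 1)
    (hPP : ∀ i k, P i ⬝ᵥ P k = if i = k then 3 else 1)
    (hPN : ∀ i k, P i ⬝ᵥ N k = if i = k then 0 else 1)
    (hNN : ∀ i k, N i ⬝ᵥ N k = if i = k then 3 else 1)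
    (hBB : ∀ i k, B i ⬝ᵥ B k = if i = k then 5 else 4)
    (hBP : ∀ j i, B j ⬝ᵥ P i = 2) (hBN : ∀ j i, B j ⬝ᵥ N i = 2)
    (hPe : ∀ i, P i ⬝ᵥ e₀ = -1) (hNe : ∀ i, N i ⬝ᵥ e₀ = 0) (hBe : ∀ i, B i ⬝ᵥ e₀ = -1) :
    ∃ Λ A B' : Fin 3 → E → ℤ, (∀ i, IsU (Λ i)) ∧ (∀ i, IsU (A i)) ∧ (∀ i, IsU (B' i)) ∧
      (∀ i, P i = A i - e₀ - Λ i) ∧ (∀ i, N i = B' i - (∑ k, Λ k) + Λ i) := by
  let w : Fin 3 → E → ℤ := fun i => P i + e₀
  let C : Fin 3 → E → ℤ := fun j => B j + e₀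
  have hee : ∀ v : E → ℤ, e₀ ⬝ᵥ v = v ⬝ᵥ e₀ := fun v => dotProduct_comm _ _
  have hww : ∀ i k, w i ⬝ᵥ w k = if i = k then 2 else 0 := by
    intro i k
    simp only [w, add_dotProduct, dotProduct_add]
    rw [hee, hPP, hPe, hPe, he]
    split_ifs <;> norm_num
  have hwN : ∀ i k, w i ⬝ᵥ N k = if i = k then 0 else 1 := by
    intro i k
    simp only [w, add_dotProduct]
    rw [hee, hPN, hNe]
    split_ifs <;> norm_num
  have hCC : ∀ j k, C j ⬝ᵥ C k = if j = k then 4 else 3 := by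
    intro i k
    simp only [C, add_dotProduct, dotProduct_add]
    rw [hee, hBB, hBe, hBe, he]
    split_ifs <;> norm_num
  have hCw : ∀ j i, C j ⬝ᵥ w i = 1 := by
    intro j i
    simp only [C, w, add_dotProduct, dotProduct_add]
    rw [hee, hBP, hBe, hPe, he]
    norm_num
  have hCN : ∀ j i, C j ⬝ᵥ N i = 2 := by
    intro j i
    simp only [C, add_dotProduct]
    rw [hee, hBN, hNe]
    norm_num
  obtain ⟨c, Z, hZ, hC⟩ := tri_C hCC
  obtain ⟨y, hy1, hy2, hy3⟩ := y_cases hCC hZ hC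
  have hZN := Z_N_zero hZ hNN (fun j i => by rw [← hC j]; exact hCN j i)
  have hcN : ∀ i, c ⬝ᵥ N i = 2 := by
    intro i
    have h1 := hCN 0 i
    rw [hC 0, add_dotProduct, hZN] at h1
    omega
  rcases hy3 with rfl | rfl
  · -- the main case
    have hcc : (-c) ⬝ᵥ (-c) = 3 := by
      simp only [neg_dotProduct, dotProduct_neg, neg_neg]
      omega
    obtain ⟨l0, l1, l2, h0, h1, h2, h01, h02, h12, hL⟩ := decomp3 hcc
    have hcl : c = -(l0 + l1 + l2) := by rw [← hL, neg_neg]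
    -- `Z` meets `w` trivially
    have hZw : ∀ i, c ⬝ᵥ w i = 1 := by
      intro i
      have h3 : ∀ j, Z j ⬝ᵥ w i = 1 - c ⬝ᵥ w i := by
        intro j
        have := hCw j i
        rw [hC j, add_dotProduct] at this
        omega
      have h4 := bessel Z hZ (w i)
      rw [Fin.sum_univ_three, dotProduct_comm (w i) (Z 0), dotProduct_comm (w i) (Z 1),
        dotProduct_comm (w i) (Z 2), h3 0, h3 1, h3 2, hww i i, if_pos rfl] at h4
      set z := 1 - c ⬝ᵥ w i with hz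
      have h5 : z = 0 := by
        by_contra hne
        have := sq_pos_of_ne_zero hne
        omega
      omega
    let l : Fin 3 → E → ℤ := ![l0, l1, l2]
    have hl : ∀ i k, l i ⬝ᵥ l k = if i = k then 1 else 0 := by
      have h10 : l1 ⬝ᵥ l0 = 0 := by rw [dotProduct_comm]; exact h01
      have h20 : l2 ⬝ᵥ l0 = 0 := by rw [dotProduct_comm]; exact h02
      have h21 : l2 ⬝ᵥ l1 = 0 := by rw [dotProduct_comm]; exact h12
      have e0 : l0 ⬝ᵥ l0 = 1 := h0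
      have e1 : l1 ⬝ᵥ l1 = 1 := h1
      have e2 : l2 ⬝ᵥ l2 = 1 := h2
      intro i k
      fin_cases i <;> fin_cases k <;> simp [l, h01, h02, h12, h10, h20, h21, e0, e1, e2]
    have hLe : l 0 + l 1 + l 2 = -c := by
      rw [hcl, neg_neg]
      rfl
    obtain ⟨Λ, A, B', hΛ, hA, hB', h5, h6⟩ := core hl hww hNN hwN
      (by
        intro i
        rw [hLe, dotProduct_neg, dotProduct_comm, hZw i])
      (by
        intro i
        rw [hLe, dotProduct_neg, dotProduct_comm, hcN i])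
    refine ⟨Λ, A, B', hΛ, hA, hB', ?_, h6⟩
    intro i
    have h7 : P i = w i - e₀ := by simp [w]
    rw [h7, h5 i]
    abel
  · -- the impossible case
    exfalso
    set s := Z 0 + Z 1 + Z 2 with hs
    set r := c + s with hr
    have h01 : Z 0 ⬝ᵥ Z 1 = 0 := by simpa using hZ 0 1
    have h02 : Z 0 ⬝ᵥ Z 2 = 0 := by simpa using hZ 0 2
    have h12 : Z 1 ⬝ᵥ Z 2 = 0 := by simpa using hZ 1 2
    have h10 : Z 1 ⬝ᵥ Z 0 = 0 := by simpa using hZ 1 0
    have h20 : Z 2 ⬝ᵥ Z 0 = 0 := by simpa using hZ 2 0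
    have h21 : Z 2 ⬝ᵥ Z 1 = 0 := by simpa using hZ 2 1
    have h00 : Z 0 ⬝ᵥ Z 0 = 1 := by simpa using hZ 0 0
    have h11 : Z 1 ⬝ᵥ Z 1 = 1 := by simpa using hZ 1 1
    have h22 : Z 2 ⬝ᵥ Z 2 = 1 := by simpa using hZ 2 2
    have hss : s ⬝ᵥ s = 3 := by
      simp only [hs, add_dotProduct, dotProduct_add]
      omega
    have hcs : c ⬝ᵥ s = -3 := by
      simp only [hs, dotProduct_add, hy1]
      norm_num
    have hrr : r ⬝ᵥ r = 2 := by
      simp only [hr, add_dotProduct, dotProduct_add]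
      rw [dotProduct_comm s c, hcs, hss, hy2]
      norm_num
    have hrN : ∀ i, N i ⬝ᵥ r = 2 := by
      intro i
      rw [dotProduct_comm]
      simp only [hr, hs, add_dotProduct, hcN, hZN]
      norm_num
    have hnn := nonneg_self (N 0 + N 1 + N 2 - (3 : ℤ) • r)
    have e00 := hNN 0 0
    have e01 := hNN 0 1
    have e02 := hNN 0 2
    have e10 := hNN 1 0
    have e11 := hNN 1 1
    have e12 := hNN 1 2
    have e20 := hNN 2 0
    have e21 := hNN 2 1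
    have e22 := hNN 2 2
    simp only [Fin.isValue, if_true, Fin.reduceEq, if_false] at e00 e01 e02 e10 e11 e12 e20 e21 e22
    simp only [sub_dotProduct, dotProduct_sub, add_dotProduct, dotProduct_add, smul_dotProduct,
      dotProduct_smul, smul_eq_mul, hrN] at hnn
    rw [dotProduct_comm r (N 0), dotProduct_comm r (N 1), dotProduct_comm r (N 2), hrN, hrN, hrN,
      hrr, e00, e01, e02, e10, e11, e12, e20, e21, e22] at hnn
    norm_num at hnn

end Cfsg.Agent.Lib.H108Coh
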