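import Mathlib
import Cfsg.Agent.Lib.GenChar
import Cfsg.Agent.Lib.CharInd
import Cfsg.Agent.Lib.CharAvg

/-!
# Induction of class functions vanishing on regular elements from the normalizer of a TI subgroup

A finite model group `M`, an isomorphism `φ : M ≃* N`, and `T ≤ N` TI with normalizer `N` such that
`N` contains the `n`-th powers of its elements in `T`. Integer class functions `F` on `M` vanishing on
`n`-torsion (`Adm n F`) induce isometrically to `G`, and their class sums are computed inside `M`.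
(Generalizes helper17's `S3x3Tau`.)
-/

set_option autoImplicit false

namespace Cfsg.Agent.Lib.TiTau

open Cfsg Cfsg.Agent.Lib.CharBasic Cfsg.Agent.Lib.CharInd
open Cfsg.Agent.Lib.GenChar
open scoped ComplexConjugate

variable {G : Type*} [Group G] {M : Type*} [Group M] {T N : Subgroup G} {φ : M ≃* N} {n : ℕ}

/-- The situation: `T` is a TI subgroup with normalizer-like `N ≅ M`, `n`-th powers lie in `T`. -/
structure Ctx (n : ℕ) (T N : Subgroup G) (φ : M ≃* N) : Prop where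
  le_N : T ≤ N
  ti : ∀ t ∈ T, t ≠ 1 → ∀ z : G, z * t * z⁻¹ ∈ T → z ∈ N
  pow_mem : ∀ w : M, ((φ w : N) : G) ^ n ∈ T

/-- The map `φ` as a map to `G`. -/
abbrev ph (φ : M ≃* N) (w : M) : G := ((φ w : N) : G)

theorem ph_mul (w v : M) : ph φ (w * v) = ph φ w * ph φ v := by simp [ph]
theorem ph_inv (w : M) : ph φ w⁻¹ = (ph φ w)⁻¹ := by simp [ph]
theorem ph_one : ph φ 1 = 1 := by simp [ph]
theorem ph_pow (w : M) (k : ℕ) : ph φ (w ^ k) = (ph φ w) ^ k := by simp [ph]
theorem ph_mem (w : M) : ph φ w ∈ N := (φ w).2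
theorem ph_inj {w v : M} (h : ph φ w = ph φ v) : w = v := φ.injective (Subtype.ext h)
theorem exists_ph {g : G} (hg : g ∈ N) : ∃ w, ph φ w = g :=
  ⟨φ.symm ⟨g, hg⟩, by simp [ph]⟩
theorem ph_conj (g w : M) : ph φ (g * w * g⁻¹) = ph φ g * ph φ w * (ph φ g)⁻¹ := by
  simp [ph]
theorem ph_ne_one {w : M} (h : w ≠ 1) : ph φ w ≠ 1 := fun h' => h (ph_inj (h'.trans ph_one.symm))

/-- Admissible functions: class functions vanishing on `n`-torsion. -/
def Adm (n : ℕ) (F : M → ℤ) : Prop :=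
  (∀ x h : M, F (h * x * h⁻¹) = F x) ∧ ∀ x : M, x ^ n = 1 → F x = 0

/-- The function on `N` attached to a function on the model. -/
noncomputable def fN (φ : M ≃* N) (F : M → ℤ) : N → ℂ := fun x => ((F (φ.symm x) : ℤ) : ℂ)

theorem ext_ph (F : M → ℤ) (w : M) : extendByZero N (fN φ F) (ph φ w) = (F w : ℂ) := by
  have := extendByZero_coe N (fN φ F) (φ w)
  simpa [fN] using this

theorem exists_of_ext_ne {F : M → ℤ} (hF : Adm n F) {g : G}
    (h : extendByZero N (fN φ F) g ≠ 0) : ∃ w, ph φ w = g ∧ w ^ n ≠ 1 := by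
  by_cases hg : g ∈ N
  · obtain ⟨w, rfl⟩ := exists_ph (φ := φ) hg
    refine ⟨w, rfl, fun h1 => h ?_⟩
    rw [ext_ph, hF.2 w h1]
    simp
  · exact absurd (extendByZero_of_not_mem N _ hg) h

/-- Two involutions whose product is in the support of an admissible function lie in `N`. -/
theorem mem_of_ext_ne (c : Ctx n T N φ) {F : M → ℤ} (hF : Adm n F) {u v : G} (hu : u * u = 1)
    (hv : v * v = 1) (h : extendByZero N (fN φ F) (u * v) ≠ 0) : u ∈ N ∧ v ∈ N := by
  obtain ⟨w, hw, hww⟩ := exists_of_ext_ne (φ := φ) hF h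
  have ht : ph φ w ^ n ∈ T := c.pow_mem w
  have hne : ph φ w ^ n ≠ 1 := by
    intro h1
    rw [← ph_pow] at h1
    exact hww (ph_inj (h1.trans ph_one.symm))
  have huinv : u⁻¹ = u := inv_eq_of_mul_eq_one_left hu
  have hvinv : v⁻¹ = v := inv_eq_of_mul_eq_one_left hv
  have hinv : (ph φ w ^ n)⁻¹ ∈ T := T.inv_mem ht
  have huv : (u * v)⁻¹ = v * u := by rw [mul_inv_rev, huinv, hvinv]
  have e1 : u * (ph φ w ^ n) * u⁻¹ = (ph φ w ^ n)⁻¹ := by
    rw [hw, ← conj_pow, ← inv_pow, huv]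
    congr 1
    rw [huinv]
    calc u * (u * v) * u = (u * u) * v * u := by group
      _ = v * u := by rw [hu]; group
  have e2 : v * (ph φ w ^ n) * v⁻¹ = (ph φ w ^ n)⁻¹ := by
    rw [hw, ← conj_pow, ← inv_pow, huv]
    congr 1
    rw [hvinv]
    calc v * (u * v) * v = v * u * (v * v) := by group
      _ = v * u := by rw [hv]; group
  exact ⟨c.ti _ ht hne u (e1 ▸ hinv), c.ti _ ht hne v (e2 ▸ hinv)⟩

section Tau

variable [Fintype G]

/-- Induction to `G`. -/
noncomputable def tau (φ : M ≃* N) (F : M → ℤ) : G → ℂ := indFun N (fN φ F)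

theorem tau_ph (c : Ctx n T N φ) {F : M → ℤ} (hF : Adm n F) (w : M) :
    tau φ F (ph φ w) = (F w : ℂ) := by
  classical
  unfold tau
  rw [indFun_apply]
  have key : ∀ x : G, extendByZero N (fN φ F) (x⁻¹ * ph φ w * x) =
      if x ∈ N then (F w : ℂ) else 0 := by
    intro x
    split_ifs with hx
    · obtain ⟨v, rfl⟩ := exists_ph (φ := φ) hx
      have h1 : (ph φ v)⁻¹ * ph φ w * ph φ v = ph φ (v⁻¹ * w * v⁻¹⁻¹) := by
        rw [ph_conj, ph_inv]
        simp
      rw [h1, ext_ph, hF.1 w v⁻¹]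
    · by_contra hne
      obtain ⟨v, hv, hvv⟩ := exists_of_ext_ne (φ := φ) hF hne
      have ht : ph φ w ^ n ∈ T := c.pow_mem w
      have h2 : x⁻¹ * (ph φ w ^ n) * x⁻¹⁻¹ = ph φ v ^ n := by
        rw [hv, ← conj_pow]
        simp
      have h3 : ph φ v ^ n ∈ T := c.pow_mem v
      have hne1 : ph φ w ^ n ≠ 1 := by
        intro h4
        rw [h4] at h2
        have h5 : ph φ (v ^ n) = 1 := by
          rw [ph_pow, ← h2]
          group
        exact hvv (ph_inj (h5.trans ph_one.symm))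
      have h6 := c.ti _ ht hne1 x⁻¹ (h2 ▸ h3)
      exact hx (by simpa using h6)
  simp only [key]
  rw [Finset.sum_ite, Finset.sum_const_zero, add_zero, Finset.sum_const, nsmul_eq_mul]
  have h7 : ((Finset.univ.filter (fun x : G => x ∈ N)).card : ℂ) = (Nat.card N : ℂ) := by
    rw [Nat.card_eq_fintype_card, Fintype.card_subtype]
  rw [h7]
  have h8 : (Nat.card N : ℂ) ≠ 0 := natCard_subgroup_ne_zero N
  field_simp

theorem tau_class (φ : M ≃* N) (F : M → ℤ) : IsClassFunction G (tau φ F) :=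
  indFun_isClassFunction N _

theorem tau_inner [Fintype M] (φ : M ≃* N) (F : M → ℤ) {ψ : G → ℂ} (hψ : IsClassFunction G ψ) :
    classInner (tau φ F) ψ =
      (Fintype.card M : ℂ)⁻¹ * ∑ w : M, ((F w : ℤ) : ℂ) * conj (ψ (ph φ w)) := by
  classical
  let _ : Fintype N := Fintype.ofFinite _
  unfold tau
  rw [frobenius N _ hψ]
  unfold classInner
  have hc : Nat.card N = Fintype.card M := by
    rw [← Nat.card_congr φ.toEquiv, Nat.card_eq_fintype_card]
  rw [hc]
  congr 1
  refine (Fintype.sum_equiv φ.toEquiv _ _ fun w => ?_).symm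
  simp [fN, ph]

theorem tau_tau [Fintype M] (c : Ctx n T N φ) (F : M → ℤ) {F' : M → ℤ} (hF' : Adm n F') :
    classInner (tau φ F) (tau φ F') =
      (Fintype.card M : ℂ)⁻¹ * ((∑ w : M, F w * F' w : ℤ) : ℂ) := by
  rw [tau_inner φ F (tau_class φ F')]
  congr 1
  push_cast
  refine Finset.sum_congr rfl fun w _ => ?_
  rw [tau_ph c hF']
  simp

theorem tau_gen (φ : M ≃* N) {F : M → ℤ}
    (hgen : IsGeneralizedCharacter M (fun w => ((F w : ℤ) : ℂ))) :
    IsGeneralizedCharacter G (tau φ F) := by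
  obtain ⟨χ, ψ, hχ, hψ, h⟩ := hgen
  have h1 : fN φ F = (χ ∘ φ.symm.toMonoidHom) - (ψ ∘ φ.symm.toMonoidHom) := by
    funext x
    have := congrFun h (φ.symm x)
    simpa [fN] using this
  refine ⟨_, _, indFun_isCharacter N (isCharacter_comp φ.symm.toMonoidHom hχ),
    indFun_isCharacter N (isCharacter_comp φ.symm.toMonoidHom hψ), ?_⟩
  unfold tau
  rw [h1, indFun_sub]

/-- The double sum over conjugates of `a`. -/
noncomputable def Dsum (a : G) (θ : G → ℂ) : ℂ := ∑ x : G, ∑ y : G, θ (x * a * x⁻¹ * (y * a * y⁻¹))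

theorem Dsum_add (a : G) (θ₁ θ₂ : G → ℂ) : Dsum a (θ₁ + θ₂) = Dsum a θ₁ + Dsum a θ₂ := by
  simp only [Dsum, Pi.add_apply, Finset.sum_add_distrib]

theorem Dsum_sub (a : G) (θ₁ θ₂ : G → ℂ) : Dsum a (θ₁ - θ₂) = Dsum a θ₁ - Dsum a θ₂ := by
  simp only [Dsum, Pi.sub_apply, Finset.sum_sub_distrib]

theorem Dsum_smul (a : G) (c : ℂ) (θ : G → ℂ) : Dsum a (c • θ) = c * Dsum a θ := by
  simp only [Dsum, Pi.smul_apply, smul_eq_mul, Finset.mul_sum]

theorem Dsum_irr {χ : G → ℂ} (hχ : IsIrrCharacter G χ) (a : G) :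
    χ 1 * Dsum a χ = (Nat.card G : ℂ) ^ 2 * (χ a * χ a) := by
  unfold Dsum
  rw [Finset.mul_sum]
  have h1 : ∀ x : G, χ 1 * ∑ y : G, χ (x * a * x⁻¹ * (y * a * y⁻¹)) =
      (Nat.card G : ℂ) * (χ a * χ a) := by
    intro x
    rw [Cfsg.Agent.Lib.CharAvg.irr_avg hχ]
    rw [isClassFunction_of_isCharacter (IsIrrCharacter.isCharacter hχ) a x]
    ring
  simp only [h1, Finset.sum_const, Finset.card_univ, nsmul_eq_mul]
  rw [← Nat.card_eq_fintype_card]
  ring

/-- Counting the fibres of conjugation. -/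
noncomputable def cc (a : G) : ℕ := by
  classical
  exact (Finset.univ.filter (fun x : G => x * a * x⁻¹ = a)).card

theorem cc_pos (a : G) : 0 < cc a := by
  classical
  unfold cc
  exact Finset.card_pos.mpr ⟨1, by simp⟩

theorem card_fiber (a u : G) (h : IsConj a u) [DecidablePred (fun x : G => x * a * x⁻¹ = u)] :
    (Finset.univ.filter (fun x : G => x * a * x⁻¹ = u)).card = cc a := by
  classical
  obtain ⟨g, rfl⟩ := isConj_iff.mp h
  unfold cc
  refine Finset.card_nbij' (fun x => g⁻¹ * x) (fun x => g * x) ?_ ?_ ?_ ?_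
  · intro x hx
    simp only [Finset.coe_filter, Finset.mem_univ, true_and, Set.mem_ofPred_eq] at hx ⊢
    have : g⁻¹ * x * a * (g⁻¹ * x)⁻¹ = g⁻¹ * (x * a * x⁻¹) * g := by group
    rw [this, hx]
    group
  · intro x hx
    simp only [Finset.coe_filter, Finset.mem_univ, true_and, Set.mem_ofPred_eq] at hx ⊢
    have : g * x * a * (g * x)⁻¹ = g * (x * a * x⁻¹) * g⁻¹ := by group
    rw [this, hx]
  · intro x _
    simp
  · intro x _
    simp

theorem sum_conj_fiber (a : G) (Φ : G → ℂ) [DecidablePred (fun u : G => IsConj a u)] :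
    ∑ x : G, Φ (x * a * x⁻¹) = (cc a : ℂ) * ∑ u : G, if IsConj a u then Φ u else 0 := by
  classical
  have h1 : ∀ x : G, Φ (x * a * x⁻¹) = ∑ u : G, if x * a * x⁻¹ = u then Φ u else 0 := by
    intro x
    rw [Finset.sum_ite_eq]
    simp
  simp only [h1]
  rw [Finset.sum_comm, Finset.mul_sum]
  refine Finset.sum_congr rfl fun u _ => ?_
  rw [Finset.sum_ite, Finset.sum_const_zero, add_zero, Finset.sum_const, nsmul_eq_mul]
  split_ifs with hu
  · rw [card_fiber a u hu]
  · have : Finset.univ.filter (fun x : G => x * a * x⁻¹ = u) = ∅ := by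
      apply Finset.filter_eq_empty_iff.mpr
      intro x _ hx
      exact hu (isConj_iff.mpr ⟨x, hx⟩)
    rw [this]
    simp

theorem sum_G_eq_sum_M [Fintype M] (H : G → ℂ) (hH : ∀ u, u ∉ N → H u = 0) :
    ∑ u : G, H u = ∑ w : M, H (ph φ w) := by
  classical
  symm
  refine Fintype.sum_of_injective (fun w => ph φ w) (fun w v h => ph_inj h) _ _ ?_ (fun _ => rfl)
  intro u hu
  apply hH
  intro hN
  obtain ⟨w, rfl⟩ := exists_ph (φ := φ) hN
  exact hu ⟨w, rfl⟩

theorem Dsum_tau_aux (φ : M ≃* N) (F : M → ℤ) (a : G) :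
    Dsum a (tau φ F) = (Nat.card N : ℂ)⁻¹ * ((Nat.card G : ℂ) *
      Dsum a (extendByZero N (fN φ F))) := by
  classical
  have key : ∀ z : G, ∑ x : G, ∑ y : G, extendByZero N (fN φ F)
      (z⁻¹ * (x * a * x⁻¹ * (y * a * y⁻¹)) * z) =
      Dsum a (extendByZero N (fN φ F)) := by
    intro z
    unfold Dsum
    refine Fintype.sum_equiv (Equiv.mulLeft z⁻¹) _ _ fun x => ?_
    refine Fintype.sum_equiv (Equiv.mulLeft z⁻¹) _ _ fun y => ?_
    congr 1
    simp only [Equiv.coe_mulLeft]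
    group
  have h2 : ∑ x : G, ∑ y : G, ∑ z : G, extendByZero N (fN φ F)
      (z⁻¹ * (x * a * x⁻¹ * (y * a * y⁻¹)) * z) =
      ∑ z : G, ∑ x : G, ∑ y : G, extendByZero N (fN φ F)
      (z⁻¹ * (x * a * x⁻¹ * (y * a * y⁻¹)) * z) := by
    calc _ = ∑ x : G, ∑ z : G, ∑ y : G, extendByZero N (fN φ F)
            (z⁻¹ * (x * a * x⁻¹ * (y * a * y⁻¹)) * z) :=
          Finset.sum_congr rfl fun x _ => Finset.sum_comm
      _ = _ := Finset.sum_comm
  have h3 : Dsum a (tau φ F) = (Nat.card N : ℂ)⁻¹ * ∑ x : G, ∑ y : G, ∑ z : G,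
      extendByZero N (fN φ F) (z⁻¹ * (x * a * x⁻¹ * (y * a * y⁻¹)) * z) := by
    unfold Dsum tau
    simp only [indFun_apply, Finset.mul_sum]
  rw [h3, h2]
  simp only [key, Finset.sum_const, Finset.card_univ, nsmul_eq_mul]
  rw [← Nat.card_eq_fintype_card]

theorem Dsum_ext [Fintype M] (c : Ctx n T N φ) {F : M → ℤ} (hF : Adm n F) {a : G} (ha : a * a = 1)
    [DecidablePred (fun u : G => IsConj a u)] :
    Dsum a (extendByZero N (fN φ F)) = (cc a : ℂ) ^ 2 *
      ∑ w : M, ∑ w' : M, if IsConj a (ph φ w) ∧ IsConj a (ph φ w') then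
        ((F (w * w') : ℤ) : ℂ) else 0 := by
  classical
  have hinv : ∀ u, IsConj a u → u * u = 1 := by
    intro u hu
    obtain ⟨g, rfl⟩ := isConj_iff.mp hu
    calc g * a * g⁻¹ * (g * a * g⁻¹) = g * (a * a) * g⁻¹ := by group
      _ = 1 := by rw [ha]; group
  unfold Dsum
  have h1 : ∀ x : G, ∑ y : G, extendByZero N (fN φ F) (x * a * x⁻¹ * (y * a * y⁻¹)) =
      (cc a : ℂ) * ∑ v : G, if IsConj a v then extendByZero N (fN φ F) (x * a * x⁻¹ * v) else 0 :=
    fun x => sum_conj_fiber a (fun v => extendByZero N (fN φ F) (x * a * x⁻¹ * v))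
  simp only [h1]
  rw [← Finset.mul_sum]
  rw [sum_conj_fiber a (fun u => ∑ v : G, if IsConj a v then
    extendByZero N (fN φ F) (u * v) else 0)]
  rw [← mul_assoc, ← sq]
  congr 1
  -- restrict to `N`
  have h2 : ∀ u : G, (if IsConj a u then ∑ v : G, if IsConj a v then
      extendByZero N (fN φ F) (u * v) else 0 else 0) =
      ∑ v : G, if IsConj a u ∧ IsConj a v then extendByZero N (fN φ F) (u * v) else 0 := by
    intro u
    by_cases hu : IsConj a u
    · rw [if_pos hu]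
      refine Finset.sum_congr rfl fun v _ => ?_
      simp only [hu, true_and]
    · rw [if_neg hu]
      symm
      refine Finset.sum_eq_zero fun v _ => ?_
      rw [if_neg (fun h => hu h.1)]
  simp only [h2]
  rw [sum_G_eq_sum_M (φ := φ)]
  · refine Finset.sum_congr rfl fun w _ => ?_
    rw [sum_G_eq_sum_M (φ := φ)]
    · refine Finset.sum_congr rfl fun w' _ => ?_
      rw [← ph_mul, ext_ph]
    · intro v hv
      split_ifs with h3
      · by_contra h4
        exact hv (mem_of_ext_ne c hF (hinv _ h3.1) (hinv _ h3.2) h4).2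
      · rfl
  · intro u hu
    refine Finset.sum_eq_zero fun v _ => ?_
    split_ifs with h3
    · by_contra h4
      exact hu (mem_of_ext_ne c hF (hinv _ h3.1) (hinv _ h3.2) h4).1
    · rfl

/-- The basic class-sum formula for induced functions. -/
theorem Dsum_tau [Fintype M] (c : Ctx n T N φ) {F : M → ℤ} (hF : Adm n F) {a : G} (ha : a * a = 1)
    [DecidablePred (fun u : G => IsConj a u)] :
    Dsum a (tau φ F) = (Fintype.card M : ℂ)⁻¹ * ((Nat.card G : ℂ) * ((cc a : ℂ) ^ 2 *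
      ∑ w : M, ∑ w' : M, if IsConj a (ph φ w) ∧ IsConj a (ph φ w') then
        ((F (w * w') : ℤ) : ℂ) else 0)) := by
  have hc : Nat.card N = Fintype.card M := by
    rw [← Nat.card_congr φ.toEquiv, Nat.card_eq_fintype_card]
  rw [Dsum_tau_aux, hc, Dsum_ext c hF ha]

end Tau

end Cfsg.Agent.Lib.TiTau
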