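import Mathlib
import Cfsg.Agent.Lib.S3x3Model
import Cfsg.Agent.Lib.TiTau

/-!
# The model `3³:2²`: even elements of `S₃ × S₃ × S₃`

Explicit class functions with finite computations.
-/

set_option autoImplicit false
set_option maxRecDepth 100000

namespace Cfsg.Agent.Lib.H108Model

open Cfsg DihedralGroup
open Cfsg.Agent.Lib.CharBasic Cfsg.Agent.Lib.GenChar
open Cfsg.Agent.Lib.S3x3Model (S3 one3 sg3 rho3 alp3 isRot sgHom gen_one3 gen_sg3 gen_rho3 gen_alp3 isGen_mul'
  class_one3 class_sg3 class_rho3 class_alp3)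

abbrev H3 := S3 × S3 × S3

theorem sg3_mul : ∀ x y : S3, sg3 (x * y) = sg3 x * sg3 y := by decide
theorem sg3_one : sg3 1 = 1 := by decide
theorem sg3_inv : ∀ x : S3, sg3 x⁻¹ = sg3 x := by decide
theorem sg3_sq : ∀ x : S3, sg3 x * sg3 x = 1 := by decide

/-- The even elements of `S₃ × S₃ × S₃`. -/
def HM : Subgroup H3 where
  carrier := {w | sg3 w.1 * sg3 w.2.1 * sg3 w.2.2 = 1}
  mul_mem' := by
    rintro ⟨a, b, c⟩ ⟨d, e, f⟩ h1 h2
    simp only [Set.mem_setOf_eq, Prod.mk_mul_mk] at h1 h2 ⊢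
    rw [sg3_mul, sg3_mul, sg3_mul]
    calc _ = (sg3 a * sg3 b * sg3 c) * (sg3 d * sg3 e * sg3 f) := by ring
      _ = 1 := by rw [h1, h2]; rfl
  one_mem' := by
    show sg3 1 * sg3 1 * sg3 1 = 1
    decide
  inv_mem' := by
    rintro ⟨a, b, c⟩ h1
    simp only [Set.mem_setOf_eq] at h1 ⊢
    show sg3 a⁻¹ * sg3 b⁻¹ * sg3 c⁻¹ = 1
    rw [sg3_inv, sg3_inv, sg3_inv]
    exact h1

instance : DecidablePred (· ∈ HM) := fun w =>
  decidable_of_iff (sg3 w.1 * sg3 w.2.1 * sg3 w.2.2 = 1) Iff.rfl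

instance : Fintype HM := Subtype.fintype _

theorem card_HM : Fintype.card HM = 108 := by decide +kernel

/-- Tensor function on the model. -/
def tn (f g h : S3 → ℤ) : HM → ℤ := fun w => f w.1.1 * g w.1.2.1 * h w.1.2.2

def nalp : S3 → ℤ := fun x => - alp3 x
def ons : S3 → ℤ := fun x => 1 + sg3 x

abbrev P1 : HM → ℤ := tn nalp one3 one3
abbrev P2 : HM → ℤ := tn one3 nalp one3
abbrev P3 : HM → ℤ := tn one3 one3 nalp
abbrev N1 : HM → ℤ := tn nalp sg3 one3
abbrev N2 : HM → ℤ := tn sg3 nalp one3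
abbrev N3 : HM → ℤ := tn sg3 one3 nalp
def B12 : HM → ℤ := fun w => tn rho3 rho3 one3 w - tn ons ons one3 w
def B13 : HM → ℤ := fun w => tn rho3 one3 rho3 w - tn ons one3 ons w
def B23 : HM → ℤ := fun w => tn one3 rho3 rho3 w - tn one3 ons ons w

def isT (w : HM) : Bool := isRot w.1.1 && isRot w.1.2.1 && isRot w.1.2.2

/-- The function families indexed by `Fin 3`. -/
def PP : Fin 3 → HM → ℤ := ![P1, P2, P3]
def NN : Fin 3 → HM → ℤ := ![N1, N2, N3]
def BB : Fin 3 → HM → ℤ := ![B12, B13, B23]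

/-- The cosets of involutions. -/
def AA : Fin 3 → HM → Bool := ![
  fun w => w.1.1 == 1 && !isRot w.1.2.1,
  fun w => w.1.2.1 == 1 && !isRot w.1.1,
  fun w => w.1.2.2 == 1 && !isRot w.1.1]

def ee : Fin 3 → HM := ![⟨(r 1, 1, 1), by decide⟩, ⟨(1, r 1, 1), by decide⟩, ⟨(1, 1, r 1), by decide⟩]
def cc3 : Fin 3 → HM := ![⟨(1, sr 0, sr 0), by decide⟩, ⟨(sr 0, 1, sr 0), by decide⟩,
  ⟨(sr 0, sr 0, 1), by decide⟩]

/-! ### Gram data -/

theorem sum_PP : ∀ i k : Fin 3, ∑ w : HM, PP i w * PP k w = if i = k then 324 else 108 := by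
  decide +kernel
theorem sum_PN : ∀ i k : Fin 3, ∑ w : HM, PP i w * NN k w = if i = k then 0 else 108 := by
  decide +kernel
theorem sum_NN : ∀ i k : Fin 3, ∑ w : HM, NN i w * NN k w = if i = k then 324 else 108 := by
  decide +kernel
theorem sum_BB : ∀ i k : Fin 3, ∑ w : HM, BB i w * BB k w = if i = k then 540 else 432 := by
  decide +kernel
theorem sum_BP : ∀ i k : Fin 3, ∑ w : HM, BB i w * PP k w = 216 := by decide +kernel
theorem sum_BN : ∀ i k : Fin 3, ∑ w : HM, BB i w * NN k w = 216 := by decide +kernel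
theorem sum_P : ∀ i : Fin 3, ∑ w : HM, PP i w = -108 := by decide +kernel
theorem sum_N : ∀ i : Fin 3, ∑ w : HM, NN i w = 0 := by decide +kernel
theorem sum_B : ∀ i : Fin 3, ∑ w : HM, BB i w = -108 := by decide +kernel

/-! ### Class sums -/

theorem msum_P : ∀ i k : Fin 3, ∑ w : HM, ∑ w' : HM,
    (if AA i w = true ∧ AA i w' = true then PP k (w * w') else 0) = if i = k then 0 else -162 := by
  decide +kernel
theorem msum_N : ∀ i k : Fin 3, ∑ w : HM, ∑ w' : HM,
    (if AA i w = true ∧ AA i w' = true then NN k (w * w') else 0) = if i = k then 0 else -162 := by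
  decide +kernel

/-! ### Admissibility -/

theorem adm_P : ∀ i : Fin 3, Cfsg.Agent.Lib.TiTau.Adm 2 (PP i) := by
  intro i
  refine ⟨?_, ?_⟩ <;> revert i <;> decide +kernel
theorem adm_N : ∀ i : Fin 3, Cfsg.Agent.Lib.TiTau.Adm 2 (NN i) := by
  intro i
  refine ⟨?_, ?_⟩ <;> revert i <;> decide +kernel
theorem adm_B : ∀ i : Fin 3, Cfsg.Agent.Lib.TiTau.Adm 2 (BB i) := by
  intro i
  refine ⟨?_, ?_⟩ <;> revert i <;> decide +kernel

/-! ### Structure of the model -/

theorem isT_sq : ∀ w : HM, isT (w ^ 2) = true := by decide +kernel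
theorem isT_of_pow : ∀ w : HM, w ^ 27 = 1 → isT w = true := by decide +kernel
theorem isT_mul : ∀ v w : HM, isT v = true → isT w = true → isT (v * w) = true := by decide +kernel
theorem isT_comm : ∀ v w : HM, isT v = true → isT w = true → v * w = w * v := by decide +kernel
theorem isT_pow3 : ∀ w : HM, isT w = true → w ^ 3 = 1 := by decide +kernel
theorem isT_one : isT 1 = true := by decide +kernel
theorem isT_inv : ∀ w : HM, isT w = true → isT w⁻¹ = true := by decide +kernel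
theorem isT_conj : ∀ v w : HM, isT w = true → isT (v * w * v⁻¹) = true := by decide +kernel
theorem card_isT : (Finset.univ.filter (fun w : HM => isT w = true)).card = 27 := by decide +kernel
theorem isT_ee : ∀ i : Fin 3, isT (ee i) = true := by decide +kernel
theorem ee_ne : ∀ i : Fin 3, ee i ≠ 1 := by decide +kernel
theorem ee_cube : ∀ i : Fin 3, ee i ^ 3 = 1 := by decide +kernel
theorem isT_gen : ∀ w : HM, isT w = true →
    ∃ i j k : Fin 3, w = ee 0 ^ (i : ℕ) * ee 1 ^ (j : ℕ) * ee 2 ^ (k : ℕ) := by decide +kernel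

theorem cc_sq : ∀ i : Fin 3, cc3 i * cc3 i = 1 := by decide +kernel
theorem cc_ne : ∀ i : Fin 3, cc3 i ≠ 1 := by decide +kernel
theorem cc_notT : ∀ i : Fin 3, isT (cc3 i) = false := by decide +kernel
/-- `c_i` centralizes `e_i`. -/
theorem cc_ee_comm : ∀ i : Fin 3, ee i * cc3 i = cc3 i * ee i := by decide +kernel
/-- `c_i` inverts `e_j`. -/
theorem cc_ee_inv : ∀ i j : Fin 3, i ≠ j → cc3 i * ee j * (cc3 i)⁻¹ = (ee j)⁻¹ := by decide +kernel

theorem cosets : ∀ w : HM, isT w = true ∨ isT (w * cc3 0) = true ∨ isT (w * cc3 1) = true ∨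
    isT (w * cc3 2) = true := by decide +kernel

theorem T_cent : ∀ (k : Fin 3) (w : HM), isT w = true → w * cc3 k = cc3 k * w →
    ∃ j : Fin 3, w = ee k ^ (j : ℕ) := by decide +kernel

theorem not_conj_ee : ∀ (i k : Fin 3), i ≠ k → ∀ (g : HM) (j : Fin 3),
    g * ee i * g⁻¹ ≠ ee k ^ (j : ℕ) := by decide +kernel

theorem inv_classify : ∀ w : HM, w ^ 2 = 1 → w = 1 ∨ AA 0 w = true ∨ AA 1 w = true ∨ AA 2 w = true := by
  decide +kernel

theorem conj_AA : ∀ (i : Fin 3) (w : HM), AA i w = true → ∃ g : HM, g * cc3 i * g⁻¹ = w := by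
  decide +kernel

theorem AA_cc : ∀ i : Fin 3, AA i (cc3 i) = true := by decide +kernel

/-! ### Values -/

theorem PP_cc : ∀ i k : Fin 3, PP i (cc3 k) = 0 := by decide +kernel
theorem NN_cc : ∀ i k : Fin 3, NN i (cc3 k) = 0 := by decide +kernel
theorem BB_cc : ∀ i k : Fin 3, BB i (cc3 k) = 0 := by decide +kernel
theorem PP_one : ∀ i : Fin 3, PP i 1 = 0 := by decide +kernel
theorem NN_one : ∀ i : Fin 3, NN i 1 = 0 := by decide +kernel
theorem BB_one : ∀ i : Fin 3, BB i 1 = 0 := by decide +kernel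

/-! ### Generalized characters -/

/-- Coordinates of the model. -/
def prj1 : HM →* S3 := (MonoidHom.fst S3 (S3 × S3)).comp HM.subtype
def prj2 : HM →* S3 := ((MonoidHom.fst S3 S3).comp (MonoidHom.snd S3 (S3 × S3))).comp HM.subtype
def prj3 : HM →* S3 := ((MonoidHom.snd S3 S3).comp (MonoidHom.snd S3 (S3 × S3))).comp HM.subtype

theorem gen_tn {f g h : S3 → ℤ} (hf : IsGeneralizedCharacter S3 (fun x => ((f x : ℤ) : ℂ)))
    (hg : IsGeneralizedCharacter S3 (fun x => ((g x : ℤ) : ℂ)))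
    (hh : IsGeneralizedCharacter S3 (fun x => ((h x : ℤ) : ℂ))) :
    IsGeneralizedCharacter HM (fun w => ((tn f g h w : ℤ) : ℂ)) := by
  have h1 := isGen_mul' (isGen_mul' (isGen_isCharacter_comp prj1 hf) (isGen_isCharacter_comp prj2 hg))
    (isGen_isCharacter_comp prj3 hh)
  convert h1 using 1
  funext w
  simp [tn, prj1, prj2, prj3]

theorem gen_nalp : IsGeneralizedCharacter S3 (fun x => ((nalp x : ℤ) : ℂ)) := by
  have h := isGen_neg gen_alp3
  convert h using 1
  funext x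
  simp [nalp]

theorem gen_ons : IsGeneralizedCharacter S3 (fun x => ((ons x : ℤ) : ℂ)) := by
  have h := isGen_add gen_one3 gen_sg3
  convert h using 1
  funext x
  simp [ons, one3]

theorem gen_P : ∀ i : Fin 3, IsGeneralizedCharacter HM (fun w => ((PP i w : ℤ) : ℂ)) := by
  intro i
  fin_cases i
  · exact gen_tn gen_nalp gen_one3 gen_one3
  · exact gen_tn gen_one3 gen_nalp gen_one3
  · exact gen_tn gen_one3 gen_one3 gen_nalp

theorem gen_N : ∀ i : Fin 3, IsGeneralizedCharacter HM (fun w => ((NN i w : ℤ) : ℂ)) := by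
  intro i
  fin_cases i
  · exact gen_tn gen_nalp gen_sg3 gen_one3
  · exact gen_tn gen_sg3 gen_nalp gen_one3
  · exact gen_tn gen_sg3 gen_one3 gen_nalp

theorem gen_sub_tn {a b : HM → ℤ} (ha : IsGeneralizedCharacter HM (fun w => ((a w : ℤ) : ℂ)))
    (hb : IsGeneralizedCharacter HM (fun w => ((b w : ℤ) : ℂ))) :
    IsGeneralizedCharacter HM (fun w => ((a w - b w : ℤ) : ℂ)) := by
  have h := isGen_sub ha hb
  convert h using 1
  funext w
  simp

theorem gen_B : ∀ i : Fin 3, IsGeneralizedCharacter HM (fun w => ((BB i w : ℤ) : ℂ)) := by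
  intro i
  fin_cases i
  · exact gen_sub_tn (gen_tn gen_rho3 gen_rho3 gen_one3) (gen_tn gen_ons gen_ons gen_one3)
  · exact gen_sub_tn (gen_tn gen_rho3 gen_one3 gen_rho3) (gen_tn gen_ons gen_one3 gen_ons)
  · exact gen_sub_tn (gen_tn gen_one3 gen_rho3 gen_rho3) (gen_tn gen_one3 gen_ons gen_ons)

end Cfsg.Agent.Lib.H108Model
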