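import Mathlib
import Cfsg.Agent.Lib.H108Model
import Cfsg.Agent.Lib.H108Coh
import Cfsg.Agent.Lib.CharLattice

/-!
# The character theory of a TI subgroup `3³` with normalizer the model group of order `108`
-/

set_option autoImplicit false

namespace Cfsg.Agent.Lib.H108Chars

open Cfsg Matrix
open Cfsg.Agent.Lib.CharBasic Cfsg.Agent.Lib.GenChar Cfsg.Agent.Lib.TiTau
open Cfsg.Agent.Lib.H108Model Cfsg.Agent.Lib.CycArray
open Cfsg.Agent.Lib.CharLattice (exists_degree_pos)
open scoped ComplexConjugate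

section Lattice

variable {G : Type*} [Group G] [Fintype G]

/-- The class function attached to a vector of coefficients. -/
noncomputable def ev (u : IrrCharacter G → ℤ) : G → ℂ := ∑ i, (u i : ℂ) • (i : G → ℂ)

theorem ev_add (u v : IrrCharacter G → ℤ) : ev (u + v) = ev u + ev v := by
  unfold ev
  rw [← Finset.sum_add_distrib]
  refine Finset.sum_congr rfl fun i _ => ?_
  simp [add_smul]

theorem ev_sub (u v : IrrCharacter G → ℤ) : ev (u - v) = ev u - ev v := by
  unfold ev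
  rw [← Finset.sum_sub_distrib]
  refine Finset.sum_congr rfl fun i _ => ?_
  simp [sub_smul]

theorem ev_zero : ev (0 : IrrCharacter G → ℤ) = 0 := by
  unfold ev
  simp

theorem ev_sum3 (f : Fin 3 → IrrCharacter G → ℤ) : ev (∑ k, f k) = ∑ k, ev (f k) := by
  simp only [Fin.sum_univ_three, ev_add]

theorem inner_ev (u v : IrrCharacter G → ℤ) : classInner (ev u) (ev v) = ((u ⬝ᵥ v : ℤ) : ℂ) := by
  unfold ev
  rw [classInner_sum_right]
  simp only [dotProduct]
  push_cast
  refine Finset.sum_congr rfl fun i _ => ?_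
  rw [classInner_smul_right, Cfsg.Agent.Lib.CharLattice.classInner_int_decomp]
  simp [mul_comm]

/-- The trivial character. -/
noncomputable def triv : IrrCharacter G := ⟨fun _ => 1, isIrrCharacter_one⟩

open Classical in
/-- The vector of the trivial character. -/
noncomputable def e0 : IrrCharacter G → ℤ := fun χ => if χ = triv then 1 else 0

theorem ev_e0 : ev (e0 : IrrCharacter G → ℤ) = fun _ => 1 := by
  classical
  unfold ev
  rw [Finset.sum_eq_single triv]
  · simp [e0, triv]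
  · intro b _ hb
    simp [e0, hb]
  · intro h
    exact absurd (Finset.mem_univ _) h

theorem dot_e0 (v : IrrCharacter G → ℤ) : v ⬝ᵥ e0 = v triv := by
  classical
  simp only [dotProduct, e0]
  rw [Finset.sum_eq_single triv]
  · simp
  · intro b _ hb
    simp [hb]
  · intro h
    exact absurd (Finset.mem_univ _) h

theorem e0_self : (e0 : IrrCharacter G → ℤ) ⬝ᵥ e0 = 1 := by
  rw [dot_e0]
  simp [e0]

/-- A unit vector is `± χ`. -/
theorem unit_struct {u : IrrCharacter G → ℤ} (hu : IsU u) :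
    ∃ (χ : IrrCharacter G) (s : ℤ), s ^ 2 = 1 ∧ ev u = (s : ℂ) • (χ : G → ℂ) := by
  classical
  have hu' : ∑ i, u i * u i = 1 := hu
  obtain ⟨χ, hχ⟩ : ∃ χ, u χ ≠ 0 := by
    by_contra hall
    push Not at hall
    simp [hall] at hu'
  have hsplit : u χ * u χ + ∑ k ∈ Finset.univ.erase χ, u k * u k = 1 := by
    rw [Finset.add_sum_erase _ (fun k => u k * u k) (Finset.mem_univ χ)]
    exact hu'
  have hrest_nonneg : 0 ≤ ∑ k ∈ Finset.univ.erase χ, u k * u k :=
    Finset.sum_nonneg fun k _ => mul_self_nonneg _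
  have hpos : 1 ≤ u χ * u χ := by
    have := mul_self_pos.mpr hχ
    omega
  have h1 : u χ * u χ = 1 := by omega
  have h2 : ∑ k ∈ Finset.univ.erase χ, u k * u k = 0 := by omega
  refine ⟨χ, u χ, by rw [sq]; exact h1, ?_⟩
  unfold ev
  rw [Finset.sum_eq_single χ]
  · intro k _ hk
    have h3 := (Finset.sum_eq_zero_iff_of_nonneg (fun k _ => mul_self_nonneg (u k))).mp h2 k
      (by simp [hk])
    rw [mul_self_eq_zero.mp h3]
    simp
  · intro h
    exact absurd (Finset.mem_univ _) h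

theorem ev_unit_one_ne {u : IrrCharacter G → ℤ} (hu : IsU u) : ev u 1 ≠ 0 := by
  obtain ⟨χ, s, hs, h⟩ := unit_struct hu
  obtain ⟨d, hd, hd'⟩ := exists_degree_pos χ.2
  rw [h]
  simp only [Pi.smul_apply, smul_eq_mul, hd']
  have hs0 : (s : ℂ) ≠ 0 := by
    have : s ≠ 0 := by
      rintro rfl
      norm_num at hs
    exact_mod_cast this
  have hd0 : (d : ℂ) ≠ 0 := by exact_mod_cast hd.ne'
  exact mul_ne_zero hs0 hd0

theorem ev_unit_Dsum {u : IrrCharacter G → ℤ} (hu : IsU u) (a : G) :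
    ev u 1 * Dsum a (ev u) = (Nat.card G : ℂ) ^ 2 * (ev u a * ev u a) := by
  obtain ⟨χ, s, hs, h⟩ := unit_struct hu
  rw [h, Dsum_smul]
  simp only [Pi.smul_apply, smul_eq_mul]
  have h1 := Dsum_irr χ.2 a
  linear_combination (s : ℂ) ^ 2 * h1

theorem ev_unit_linear {u : IrrCharacter G → ℤ} (hu : IsU u) (h1 : ev u 1 = 1) :
    IsIrrCharacter G (ev u) := by
  obtain ⟨χ, s, hs, h⟩ := unit_struct hu
  obtain ⟨d, hd, hd'⟩ := exists_degree_pos χ.2
  rw [h] at h1 ⊢
  simp only [Pi.smul_apply, smul_eq_mul, hd'] at h1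
  have h2 : s * (d : ℤ) = 1 := by exact_mod_cast h1
  have h3 : s = 1 := by
    have : (s - 1) * (s + 1) = 0 := by ring_nf; omega
    rcases mul_eq_zero.mp this with h4 | h4
    · omega
    · exfalso
      have h5 : s = -1 := by omega
      rw [h5] at h2
      omega
  rw [h3]
  simpa using χ.2

end Lattice

theorem sum_three_distinct {α : Type*} [AddCommMonoid α] (f : Fin 3 → α) {i m k : Fin 3}
    (h1 : i ≠ m) (h2 : i ≠ k) (h3 : m ≠ k) : ∑ j, f j = f i + f m + f k := by
  have h : (Finset.univ : Finset (Fin 3)) = {i, m, k} := by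
    revert i m k
    decide
  rw [h, Finset.sum_insert (by simp [h1, h2]), Finset.sum_pair h3, add_assoc]

theorem exists_two : ∀ i : Fin 3, ∃ m k : Fin 3, i ≠ m ∧ i ≠ k ∧ m ≠ k := by decide
theorem exists_third : ∀ i m : Fin 3, i ≠ m → ∃ k : Fin 3, i ≠ k ∧ m ≠ k := by decide

/-- The algebra of class sums. -/
theorem alg_core {N K xi xm yi ym Di Dm : ℂ} (hN : N ≠ 0) (hK : K ≠ 0) (hxi : xi ≠ 0)
    (hxm : xm ≠ 0) (E1i : xi * Di = N * (yi * yi)) (E1m : xm * Dm = N * (ym * ym))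
    (E2i : (1 + xi) * (K * 0 + N + Di) = N * ((1 + yi) * (1 + yi)))
    (E2m : (1 + xm) * (K * (-162) + N + Dm) = N * ((1 + ym) * (1 + ym)))
    (E3 : (xi + xm) * (K * (-162) + Di + Dm) = N * ((yi + ym) * (yi + ym))) :
    xi = 1 ∧ yi = xi ∧ (xm - ym) ^ 2 * N = 162 * K * xm * (1 + xm) := by
  have h1 : N * (xi - yi) ^ 2 = 0 := by
    linear_combination xi * E2i - (1 + xi) * E1i
  have hy : yi = xi := by
    have h2 : (xi - yi) ^ 2 = 0 := by
      rcases mul_eq_zero.mp h1 with h | h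
      · exact absurd h hN
      · exact h
    have h3 : xi - yi = 0 := pow_eq_zero_iff (by norm_num) |>.mp h2
    linear_combination -h3
  have h2 : (xm - ym) ^ 2 * N = 162 * K * xm * (1 + xm) := by
    linear_combination xm * E2m - (1 + xm) * E1m
  have hG : (xi + xm) * xi * xm * (K * (-162)) + N * (xm * yi - xi * ym) ^ 2 = 0 := by
    linear_combination xi * xm * E3 - (xi + xm) * xm * E1i - (xi + xm) * xi * E1m
  subst hy
  have h4 : 162 * K * yi * xm ^ 2 * (yi - 1) = 0 := by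
    linear_combination hG + yi ^ 2 * h2 * (-1)
  refine ⟨?_, rfl, h2⟩
  have h5 : 162 * K * yi * xm ^ 2 ≠ 0 := by
    have : (162 : ℂ) ≠ 0 := by norm_num
    exact mul_ne_zero (mul_ne_zero (mul_ne_zero this hK) hxi) (pow_ne_zero 2 hxm)
  have h6 := (mul_eq_zero.mp h4).resolve_left h5
  linear_combination h6

section Main

variable {G : Type*} [Group G] [Fintype G] {T N : Subgroup G} {φ : HM ≃* N}

theorem gram (c : Ctx 2 T N φ) {F F' : HM → ℤ} (hF' : Adm 2 F') {u v : IrrCharacter G → ℤ}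
    (hu : tau φ F = ev u) (hv : tau φ F' = ev v) {n : ℤ} (hs : ∑ w, F w * F' w = 108 * n) :
    u ⬝ᵥ v = n := by
  have h1 := tau_tau c F hF'
  rw [hu, hv, inner_ev, card_HM, hs] at h1
  have h2 : ((u ⬝ᵥ v : ℤ) : ℂ) = (n : ℂ) := by
    rw [h1]
    push_cast
    field_simp
  exact_mod_cast h2

theorem gram0 {F : HM → ℤ} {u : IrrCharacter G → ℤ} (hu : tau φ F = ev u) {n : ℤ}
    (hs : ∑ w, F w = 108 * n) : u ⬝ᵥ e0 = n := by
  have h1 := tau_inner φ F (isClassFunction_of_isCharacter (isCharacter_one (G := G)))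
  rw [hu, ← ev_e0, inner_ev] at h1
  have h3 : (∑ w : HM, ((F w : ℤ) : ℂ) * conj (1 : ℂ)) = ((∑ w, F w : ℤ) : ℂ) := by
    push_cast
    simp
  rw [h3, card_HM, hs] at h1
  have h2 : ((u ⬝ᵥ e0 : ℤ) : ℂ) = (n : ℂ) := by
    rw [h1]
    push_cast
    field_simp
  exact_mod_cast h2

/-- The basic structure of the isometry. -/
theorem exists_struct (c : Ctx 2 T N φ) :
    ∃ Λ A B : Fin 3 → IrrCharacter G → ℤ, (∀ i, IsU (Λ i)) ∧ (∀ i, IsU (A i)) ∧ (∀ i, IsU (B i)) ∧
      (∀ i, tau φ (PP i) = ev (A i) - (fun _ => 1) - ev (Λ i)) ∧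
      (∀ i, tau φ (NN i) = ev (B i) - ∑ k, ev (Λ k) + ev (Λ i)) := by
  classical
  have hP := fun i => Cfsg.Agent.Lib.CharLattice.exists_int_decomp (tau_gen φ (gen_P i) : IsGeneralizedCharacter G _)
  have hN := fun i => Cfsg.Agent.Lib.CharLattice.exists_int_decomp (tau_gen φ (gen_N i) : IsGeneralizedCharacter G _)
  have hB := fun i => Cfsg.Agent.Lib.CharLattice.exists_int_decomp (tau_gen φ (gen_B i) : IsGeneralizedCharacter G _)
  choose aP haP using hP
  choose aN haN using hN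
  choose aB haB using hB
  have haP' : ∀ i, tau φ (PP i) = ev (aP i) := haP
  have haN' : ∀ i, tau φ (NN i) = ev (aN i) := haN
  have haB' : ∀ i, tau φ (BB i) = ev (aB i) := haB
  obtain ⟨Λ, A, B, hΛ, hA, hB, h5, h6⟩ := Cfsg.Agent.Lib.H108Coh.coh (e0 : IrrCharacter G → ℤ)
    aP aN aB e0_self
    (by
      intro i k
      refine gram c (adm_P k) (haP' i) (haP' k) ?_
      rw [sum_PP]
      split_ifs <;> norm_num)
    (by
      intro i k
      refine gram c (adm_N k) (haP' i) (haN' k) ?_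
      rw [sum_PN]
      split_ifs <;> norm_num)
    (by
      intro i k
      refine gram c (adm_N k) (haN' i) (haN' k) ?_
      rw [sum_NN]
      split_ifs <;> norm_num)
    (by
      intro i k
      refine gram c (adm_B k) (haB' i) (haB' k) ?_
      rw [sum_BB]
      split_ifs <;> norm_num)
    (by
      intro i k
      refine gram c (adm_P k) (haB' i) (haP' k) ?_
      rw [sum_BP]
      norm_num)
    (by
      intro i k
      refine gram c (adm_N k) (haB' i) (haN' k) ?_
      rw [sum_BN]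
      norm_num)
    (by
      intro i
      refine gram0 (haP' i) ?_
      rw [sum_P]
      norm_num)
    (by
      intro i
      refine gram0 (haN' i) ?_
      rw [sum_N]
      norm_num)
    (by
      intro i
      refine gram0 (haB' i) ?_
      rw [sum_B]
      norm_num)
  refine ⟨Λ, A, B, hΛ, hA, hB, ?_, ?_⟩
  · intro i
    rw [haP', h5 i, ev_sub, ev_sub, ev_e0]
  · intro i
    rw [haN', h6 i, ev_add, ev_sub, ev_sum3]

/-- The constant in the class sum formula. -/
noncomputable def Kc (a : G) : ℂ := (108 : ℂ)⁻¹ * ((Nat.card G : ℂ) * (cc a : ℂ) ^ 2)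

theorem Kc_ne (a : G) : Kc a ≠ 0 := by
  unfold Kc
  have h1 : (108 : ℂ)⁻¹ ≠ 0 := by norm_num
  have h2 : (Nat.card G : ℂ) ≠ 0 := by
    have : Nat.card G ≠ 0 := Nat.card_pos.ne'
    exact_mod_cast this
  have h3 : (cc a : ℂ) ≠ 0 := by exact_mod_cast (cc_pos a).ne'
  exact mul_ne_zero h1 (mul_ne_zero h2 (pow_ne_zero 2 h3))

theorem Dsum_val (c : Ctx 2 T N φ) {F : HM → ℤ} (hF : Adm 2 F) (i : Fin 3)
    (hconj : ∀ w, IsConj (ph φ (cc3 i)) (ph φ w) ↔ AA i w = true) {M' : ℤ}
    (hM : ∑ w : HM, ∑ w' : HM, (if AA i w = true ∧ AA i w' = true then F (w * w') else 0) = M') :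
    Dsum (ph φ (cc3 i)) (tau φ F) = Kc (ph φ (cc3 i)) * (M' : ℂ) := by
  classical
  have ha : ph φ (cc3 i) * ph φ (cc3 i) = 1 := by rw [← ph_mul, cc_sq, ph_one]
  rw [Dsum_tau c hF ha, card_HM]
  have h1 : (∑ w : HM, ∑ w' : HM, if IsConj (ph φ (cc3 i)) (ph φ w) ∧
      IsConj (ph φ (cc3 i)) (ph φ w') then ((F (w * w') : ℤ) : ℂ) else 0) = (M' : ℂ) := by
    rw [← hM]
    push_cast
    refine Finset.sum_congr rfl fun w _ => Finset.sum_congr rfl fun w' _ => ?_
    simp only [hconj]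
  rw [h1]
  unfold Kc
  push_cast
  ring

theorem Dsum_const (a : G) : Dsum a (fun _ => 1) = (Nat.card G : ℂ) ^ 2 := by
  have := Dsum_irr (isIrrCharacter_one (G := G)) a
  simpa using this

/-- The linear characters. -/
theorem exists_linear (c : Ctx 2 T N φ)
    (hconj : ∀ i w, IsConj (ph φ (cc3 i)) (ph φ w) ↔ AA i w = true) :
    ∃ l : Fin 3 → G → ℂ, (∀ k, IsIrrCharacter G (l k)) ∧ (∀ k, l k 1 = 1) ∧
      (∀ i, l i (ph φ (cc3 i)) = 1) ∧ (∀ i k, i ≠ k → l k (ph φ (cc3 i)) ≠ 1) := by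
  classical
  obtain ⟨Λ, A, B, hΛ, hA, hB, hP, hN⟩ := exists_struct c
  have hcard : (Nat.card G : ℂ) ^ 2 ≠ 0 := by
    have : Nat.card G ≠ 0 := Nat.card_pos.ne'
    exact pow_ne_zero 2 (by exact_mod_cast this)
  have key : ∀ i m k : Fin 3, i ≠ m → i ≠ k → m ≠ k →
      ev (Λ i) 1 = 1 ∧ ev (Λ i) (ph φ (cc3 i)) = ev (Λ i) 1 ∧
      (ev (Λ m) 1 - ev (Λ m) (ph φ (cc3 i))) ^ 2 * (Nat.card G : ℂ) ^ 2 =
        162 * Kc (ph φ (cc3 i)) * ev (Λ m) 1 * (1 + ev (Λ m) 1) := by
    intro i m k him hik hmk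
    set a := ph φ (cc3 i) with ha
    have hA1 : ∀ j, ev (A j) = tau φ (PP j) + (fun _ => 1) + ev (Λ j) := by
      intro j
      rw [hP j]
      abel
    have hB1 : ev (B k) = tau φ (NN k) + ev (Λ i) + ev (Λ m) := by
      rw [hN k, sum_three_distinct (fun j => ev (Λ j)) him hik hmk]
      abel
    have v1 : ∀ j, tau φ (PP j) 1 = 0 := by
      intro j
      have := tau_ph c (adm_P j) 1
      rw [ph_one, PP_one] at this
      simpa using this
    have va : ∀ j, tau φ (PP j) a = 0 := by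
      intro j
      have := tau_ph c (adm_P j) (cc3 i)
      rw [PP_cc] at this
      simpa using this
    have w1 : tau φ (NN k) 1 = 0 := by
      have := tau_ph c (adm_N k) 1
      rw [ph_one, NN_one] at this
      simpa using this
    have wa : tau φ (NN k) a = 0 := by
      have := tau_ph c (adm_N k) (cc3 i)
      rw [NN_cc] at this
      simpa using this
    have dP : ∀ j, Dsum a (tau φ (PP j)) = Kc a * ((if i = j then 0 else -162 : ℤ) : ℂ) := by
      intro j
      exact Dsum_val c (adm_P j) i (hconj i) (msum_P i j)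
    have dN : Dsum a (tau φ (NN k)) = Kc a * ((if i = k then 0 else -162 : ℤ) : ℂ) :=
      Dsum_val c (adm_N k) i (hconj i) (msum_N i k)
    have E2 : ∀ j, (1 + ev (Λ j) 1) * (Kc a * ((if i = j then 0 else -162 : ℤ) : ℂ) +
        (Nat.card G : ℂ) ^ 2 + Dsum a (ev (Λ j))) =
        (Nat.card G : ℂ) ^ 2 * ((1 + ev (Λ j) a) * (1 + ev (Λ j) a)) := by
      intro j
      have h := ev_unit_Dsum (hA j) a
      rw [hA1 j, Dsum_add, Dsum_add, dP j, Dsum_const] at h
      simp only [Pi.add_apply, v1 j, va j, zero_add] at h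
      exact h
    have E3 : (ev (Λ i) 1 + ev (Λ m) 1) * (Kc a * (-162) + Dsum a (ev (Λ i)) + Dsum a (ev (Λ m))) =
        (Nat.card G : ℂ) ^ 2 * ((ev (Λ i) a + ev (Λ m) a) * (ev (Λ i) a + ev (Λ m) a)) := by
      have h := ev_unit_Dsum (hB k) a
      rw [hB1, Dsum_add, Dsum_add, dN, if_neg hik] at h
      simp only [Pi.add_apply, w1, wa, zero_add] at h
      simpa using h
    have E2i := E2 i
    have E2m := E2 m
    rw [if_pos rfl] at E2i
    rw [if_neg him] at E2m
    have h := alg_core hcard (Kc_ne a) (ev_unit_one_ne (hΛ i)) (ev_unit_one_ne (hΛ m))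
      (ev_unit_Dsum (hΛ i) a) (ev_unit_Dsum (hΛ m) a) (by simpa using E2i) (by simpa using E2m) E3
    exact h
  have hdeg : ∀ i, ev (Λ i) 1 = 1 := by
    intro i
    obtain ⟨m, k, h1, h2, h3⟩ := exists_two i
    exact (key i m k h1 h2 h3).1
  refine ⟨fun k => ev (Λ k), fun k => ev_unit_linear (hΛ k) (hdeg k), hdeg, ?_, ?_⟩
  · intro i
    obtain ⟨m, k, h1, h2, h3⟩ := exists_two i
    have h := key i m k h1 h2 h3
    show ev (Λ i) _ = 1
    rw [h.2.1, h.1]
  · intro i m him
    obtain ⟨k, h1, h2⟩ := exists_third i m him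
    have h := (key i m k him h1 h2).2.2
    show ev (Λ m) _ ≠ 1
    intro h3
    rw [h3, hdeg m] at h
    have h4 : (162 : ℂ) * Kc (ph φ (cc3 i)) * 1 * (1 + 1) ≠ 0 := by
      have := Kc_ne (ph φ (cc3 i))
      simp [this]
    apply h4
    rw [← h]
    ring

end Main

end Cfsg.Agent.Lib.H108Chars
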