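import Mathlib
import Cfsg.Agent.Lib.H108Chars
import Cfsg.Agent.Lib.BrauerWielandt

/-!
# The normality of a TI Sylow subgroup `3³` with normalizer the model group of order `108`
-/

set_option autoImplicit false

open scoped Pointwise

namespace Cfsg.Agent.Lib.H108Final

open Cfsg Cfsg.Agent.Lib.CharBasic Cfsg.Agent.Lib.TiTau Cfsg.Agent.Lib.H108Model
open Cfsg.Agent.Lib.H108Chars

variable {G : Type*} [Group G] {N : Subgroup G} {φ : HM ≃* N}

theorem isP_zpowers {K : Type*} [Group K] (x : K) (hx : x ^ 3 = 1) :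
    IsPGroup 3 (Subgroup.zpowers x) := by
  rintro ⟨y, hy⟩
  refine ⟨1, Subtype.ext ?_⟩
  obtain ⟨m, rfl⟩ := Subgroup.mem_zpowers_iff.mp hy
  simp only [pow_one, Subgroup.coe_pow, Subgroup.coe_one]
  rw [← zpow_natCast, ← zpow_mul, mul_comm, zpow_mul, zpow_natCast, hx, one_zpow]

theorem mem_smul_sylow {K : Type*} [Group K] {p : ℕ} [Fact p.Prime] (Q : Sylow p K) (z : K) {x : K}
    (h : x ∈ ((z • Q : Sylow p K) : Subgroup K)) : z⁻¹ * x * z ∈ (Q : Subgroup K) := by
  rw [Sylow.coe_subgroup_smul, Subgroup.mem_pointwise_smul_iff_inv_smul_mem] at h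
  simpa [MulAut.smul_def, MulAut.conj_apply] using h

/-- The three classes of involutions are distinct. -/
theorem not_conj_cc [Finite G] (P : Sylow 3 G) (c : Ctx 2 (P : Subgroup G) N φ)
    (hT : ∀ w, ph φ w ∈ (P : Subgroup G) ↔ isT w = true) {i k : Fin 3} (hik : i ≠ k) :
    ¬ IsConj (ph φ (cc3 i)) (ph φ (cc3 k)) := by
  classical
  intro h
  obtain ⟨g, hg⟩ := isConj_iff.mp h
  set b := ph φ (cc3 k) with hb
  set a := ph φ (cc3 i) with ha
  set e₁ := ph φ (ee k) with he₁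
  set e₂ := ph φ (ee i) with he₂
  have he₁3 : e₁ ^ 3 = 1 := by rw [he₁, ← ph_pow, ee_cube, ph_one]
  have he₂3 : e₂ ^ 3 = 1 := by rw [he₂, ← ph_pow, ee_cube, ph_one]
  have he₁T : e₁ ∈ (P : Subgroup G) := (hT _).mpr (isT_ee k)
  have he₂T : e₂ ∈ (P : Subgroup G) := (hT _).mpr (isT_ee i)
  have he₁ne : e₁ ≠ 1 := ph_ne_one (ee_ne k)
  have he₂ne : e₂ ≠ 1 := ph_ne_one (ee_ne i)
  let Cb : Subgroup G := Subgroup.centralizer ({b} : Set G)
  have he₁C : e₁ ∈ Cb := by
    rw [Subgroup.mem_centralizer_singleton_iff, he₁, hb, ← ph_mul, ← ph_mul, cc_ee_comm]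
  have hyC : g * e₂ * g⁻¹ ∈ Cb := by
    rw [Subgroup.mem_centralizer_singleton_iff]
    have h1 : e₂ * a = a * e₂ := by
      rw [he₂, ha, ← ph_mul, ← ph_mul, cc_ee_comm]
    rw [← hg]
    calc g * e₂ * g⁻¹ * (g * a * g⁻¹) = g * (e₂ * a) * g⁻¹ := by group
      _ = g * (a * e₂) * g⁻¹ := by rw [h1]
      _ = g * a * g⁻¹ * (g * e₂ * g⁻¹) := by group
  let e₁' : Cb := ⟨e₁, he₁C⟩
  let y' : Cb := ⟨g * e₂ * g⁻¹, hyC⟩
  have he₁'3 : e₁' ^ 3 = 1 := Subtype.ext he₁3
  have hy'3 : y' ^ 3 = 1 := by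
    apply Subtype.ext
    show (g * e₂ * g⁻¹) ^ 3 = 1
    rw [conj_pow, he₂3]
    group
  obtain ⟨Q, hQ⟩ := (isP_zpowers e₁' he₁'3).exists_le_sylow
  have hQ' : IsPGroup 3 ((Q : Subgroup Cb).map Cb.subtype) := Q.isPGroup'.map _
  obtain ⟨R, hR⟩ := hQ'.exists_le_sylow
  obtain ⟨z, hz⟩ := MulAction.exists_smul_eq G P R
  have hin : ∀ x : Cb, x ∈ (Q : Subgroup Cb) → z⁻¹ * (x : G) * z ∈ (P : Subgroup G) := by
    intro x hx
    apply mem_smul_sylow P z
    rw [hz]
    exact hR ⟨x, hx, rfl⟩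
  have he₁Q : e₁' ∈ (Q : Subgroup Cb) := hQ (Subgroup.mem_zpowers e₁')
  have hzN : z⁻¹ ∈ N := by
    apply c.ti e₁ he₁T he₁ne z⁻¹
    simpa using hin e₁' he₁Q
  obtain ⟨v, hv⟩ := exists_ph (φ := φ) hzN
  -- elements of `Q` are powers of `e₁`
  have hpow : ∀ x : Cb, x ∈ (Q : Subgroup Cb) → ∃ j : Fin 3, (x : G) = ph φ (ee k ^ (j : ℕ)) := by
    intro x hx
    have h1 := hin x hx
    obtain ⟨w, hw⟩ := exists_ph (φ := φ) (c.le_N h1)
    have hwT : isT w = true := (hT w).mp (by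
      rw [hw]
      exact h1)
    have hzv : z = ph φ v⁻¹ := by
      rw [ph_inv, hv]
      simp
    have hx2 : (x : G) = ph φ (v⁻¹ * w * v⁻¹⁻¹) := by
      rw [ph_conj, hw, ← hzv]
      group
    have hxT : isT (v⁻¹ * w * v⁻¹⁻¹) = true := isT_conj _ _ hwT
    have hxb : (x : G) ∈ Cb := x.2
    rw [Subgroup.mem_centralizer_singleton_iff, hx2, hb, ← ph_mul, ← ph_mul] at hxb
    obtain ⟨j, hj⟩ := T_cent k _ hxT (ph_inj hxb)
    exact ⟨j, by rw [hx2, hj]⟩
  obtain ⟨Q₂, hQ₂⟩ := (isP_zpowers y' hy'3).exists_le_sylow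
  obtain ⟨w, hw⟩ := MulAction.exists_smul_eq Cb Q Q₂
  have hy2 : w⁻¹ * y' * w ∈ (Q : Subgroup Cb) := by
    apply mem_smul_sylow Q w
    rw [hw]
    exact hQ₂ (Subgroup.mem_zpowers y')
  obtain ⟨j, hj⟩ := hpow _ hy2
  have hconj : ((w : G)⁻¹ * g) * e₂ * ((w : G)⁻¹ * g)⁻¹ = ph φ (ee k ^ (j : ℕ)) := by
    rw [← hj]
    show _ = (w : G)⁻¹ * (g * e₂ * g⁻¹) * (w : G)
    group
  have hT' : ph φ (ee k ^ (j : ℕ)) ∈ (P : Subgroup G) := by
    rw [ph_pow]
    exact (P : Subgroup G).pow_mem he₁T _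
  have hzN2 : (w : G)⁻¹ * g ∈ N := c.ti e₂ he₂T he₂ne _ (hconj ▸ hT')
  obtain ⟨v', hv'⟩ := exists_ph (φ := φ) hzN2
  rw [← hv', he₂, ← ph_conj] at hconj
  exact not_conj_ee i k hik v' j (ph_inj hconj)

/-- Conjugates of the involutions inside the normalizer. -/
theorem conj_iff [Finite G] (P : Sylow 3 G) (c : Ctx 2 (P : Subgroup G) N φ)
    (hT : ∀ w, ph φ w ∈ (P : Subgroup G) ↔ isT w = true) (i : Fin 3) (w : HM) :
    IsConj (ph φ (cc3 i)) (ph φ w) ↔ AA i w = true := by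
  have hconj : ∀ (j : Fin 3) (w : HM), AA j w = true → IsConj (ph φ (cc3 j)) (ph φ w) := by
    intro j w hw
    obtain ⟨g, rfl⟩ := conj_AA j w hw
    exact isConj_iff.mpr ⟨ph φ g, (ph_conj g _).symm⟩
  refine ⟨fun h => ?_, hconj i w⟩
  have h1 : ph φ w ^ 2 = 1 := by
    obtain ⟨g, hg⟩ := isConj_iff.mp h
    rw [← hg, conj_pow, ← ph_pow]
    have : cc3 i ^ 2 = 1 := by rw [sq, cc_sq]
    rw [this, ph_one]
    group
  rw [← ph_pow] at h1
  have h2 : w ^ 2 = 1 := ph_inj (h1.trans ph_one.symm)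
  have key : ∀ j : Fin 3, AA j w = true → AA i w = true := by
    intro j hj
    by_cases hij : i = j
    · rw [hij]
      exact hj
    · exact absurd (h.trans (hconj j w hj).symm) (not_conj_cc P c hT hij)
  rcases inv_classify w h2 with rfl | h3 | h3 | h3
  · exfalso
    rw [ph_one] at h
    have h4 := isConj_one_right.mp h.symm
    exact cc_ne i (ph_inj (h4.trans ph_one.symm))
  · exact key 0 h3
  · exact key 1 h3
  · exact key 2 h3

/-- A homomorphism to `ℂˣ` is trivial on `e_j`. -/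
theorem hom_ee (f : G →* ℂˣ) (j : Fin 3) : f (ph φ (ee j)) = 1 := by
  obtain ⟨i, hij⟩ : ∃ i : Fin 3, i ≠ j := by
    revert j
    decide
  have h1 := cc_ee_inv i j hij
  have h2 : ph φ (cc3 i) * ph φ (ee j) * (ph φ (cc3 i))⁻¹ = (ph φ (ee j))⁻¹ := by
    rw [← ph_inv, ← ph_inv, ← ph_mul, ← ph_mul, h1]
  have h3 := congrArg f h2
  rw [map_mul, map_mul, map_inv, map_inv, mul_comm (f (ph φ (cc3 i))), mul_inv_cancel_right] at h3
  have h4 : f (ph φ (ee j)) ^ 3 = 1 := by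
    rw [← map_pow, ← ph_pow, ee_cube, ph_one, map_one]
  set u := f (ph φ (ee j))
  have h5 : u * u = 1 := by
    nth_rw 1 [h3]
    group
  calc u = u ^ 3 * (u * u)⁻¹ := by group
    _ = 1 := by rw [h4, h5]; group

/-- The main theorem: `T` is normal. -/
theorem final_step [Fintype G] (T : Sylow 3 G)
    (hE : Cfsg.IsElementaryAbelian 3 (T : Subgroup G)) (h27 : Nat.card (T : Subgroup G) = 27)
    (c : Ctx 2 (T : Subgroup G) N φ) (hmem : ∀ w, ph φ w ∈ (T : Subgroup G) ↔ isT w = true) :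
    (T : Subgroup G).Normal := by
  classical
  have hloc : ∀ t ∈ (T : Subgroup G), t ≠ 1 → Subgroup.centralizer ({t} : Set G) ≤ N := by
    intro t ht ht1 z hz
    apply c.ti t ht ht1 z
    rw [Subgroup.mem_centralizer_singleton_iff] at hz
    rw [hz]
    simpa using ht
  obtain ⟨l, hl1, hl2, hl3, hl4⟩ := exists_linear c (conj_iff T c hmem)
  have hf : ∀ k, ∃ f : G →* ℂˣ, ∀ g, l k g = f g := fun k =>
    exists_hom_of_degree_one (IsIrrCharacter.isCharacter (hl1 k)) (hl2 k)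
  choose f hf using hf
  have hfcc : ∀ i k, i ≠ k → f k (ph φ (cc3 i)) ≠ 1 := by
    intro i k hik h
    apply hl4 i k hik
    rw [hf, h]
    simp
  let H : Subgroup G := (f 0).ker ⊓ (f 1).ker ⊓ (f 2).ker
  have hHn : H.Normal := inferInstance
  have hmemH : ∀ g, g ∈ H ↔ ∀ k, f k g = 1 := by
    intro g
    simp only [H, Subgroup.mem_inf, MonoidHom.mem_ker]
    constructor
    · rintro ⟨⟨h0, h1⟩, h2⟩ k
      fin_cases k
      · exact h0
      · exact h1
      · exact h2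
    · intro h
      exact ⟨⟨h 0, h 1⟩, h 2⟩
  have hTH : (T : Subgroup G) ≤ H := by
    intro t ht
    obtain ⟨w, rfl⟩ := exists_ph (φ := φ) (c.le_N ht)
    have hw : isT w = true := (hmem w).mp ht
    rw [hmemH]
    intro k
    obtain ⟨a, b, d, rfl⟩ := isT_gen w hw
    simp only [ph_mul, ph_pow, map_mul, map_pow, hom_ee, one_pow, mul_one]
  have hHN : ∀ g ∈ H, g ∈ N → g ∈ (T : Subgroup G) := by
    intro g hg hgN
    obtain ⟨w, rfl⟩ := exists_ph (φ := φ) hgN
    apply (hmem w).mpr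
    have hone : ∀ k, f k (ph φ w) = 1 := (hmemH _).mp hg
    have aux : ∀ i : Fin 3, isT (w * cc3 i) = true → False := by
      intro i hi
      obtain ⟨k, hk⟩ := Cfsg.Agent.Lib.H108Coh.exists_ne3 i
      have h1 : ph φ (w * cc3 i) ∈ H := hTH ((hmem _).mpr hi)
      have h2 := (hmemH _).mp h1 k
      rw [ph_mul, map_mul, hone k, one_mul] at h2
      exact hfcc i k hk h2
    rcases cosets w with h | h | h | h
    · exact h
    · exact (aux 0 h).elim
    · exact (aux 1 h).elim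
    · exact (aux 2 h).elim
  have he₁ : ph φ (ee 0) ∈ (T : Subgroup G) := (hmem _).mpr (isT_ee 0)
  have he₁1 : ph φ (ee 0) ≠ 1 := ph_ne_one (ee_ne 0)
  have hcomm : ∀ x ∈ (T : Subgroup G), ∀ y ∈ (T : Subgroup G), x * y = y * x := by
    intro x hx y hy
    have := hE.1.is_comm.comm (⟨x, hx⟩ : (T : Subgroup G)) ⟨y, hy⟩
    exact congrArg Subtype.val this
  -- Burnside's transfer theorem in `H`
  let Q : Sylow 3 H := T.subtype hTH
  have hQmem : ∀ x : H, x ∈ (Q : Subgroup H) ↔ (x : G) ∈ (T : Subgroup G) := by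
    intro x
    show x ∈ ((T.subtype hTH : Sylow 3 H) : Subgroup H) ↔ _
    rw [Sylow.coe_subtype, Subgroup.mem_subgroupOf]
  have hQ : Subgroup.normalizer ((Q : Subgroup H) : Set H) ≤
      Subgroup.centralizer ((Q : Subgroup H) : Set H) := by
    intro h hh
    have h1 : (h : G) ∈ N := by
      apply c.ti _ he₁ he₁1 (h : G)
      have h2 : (⟨ph φ (ee 0), hTH he₁⟩ : H) ∈ (Q : Subgroup H) := (hQmem _).mpr he₁
      have h3 := (Subgroup.mem_normalizer_iff.mp hh _).mp h2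
      exact (hQmem _).mp h3
    have h4 : (h : G) ∈ (T : Subgroup G) := hHN _ h.2 h1
    rw [Subgroup.mem_centralizer_iff]
    intro x hx
    apply Subtype.ext
    exact hcomm _ ((hQmem _).mp hx) _ h4
  have hcomp := MonoidHom.ker_transferSylow_isComplement' Q hQ
  have hR3 := MonoidHom.not_dvd_card_ker_transferSylow Q hQ
  set R := MonoidHom.ker (MonoidHom.transferSylow Q hQ) with hR
  have hRn : R.Normal := MonoidHom.normal_ker _
  let K : Subgroup G := R.map H.subtype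
  have hcardK : Nat.card K = Nat.card R :=
    Nat.card_congr (R.equivMapOfInjective _ H.subtype_injective).toEquiv.symm
  have hKH : ∀ x ∈ K, x ∈ H := by
    rintro _ ⟨r, -, rfl⟩
    exact r.2
  have hKinf : ∀ x ∈ K, x ∈ (T : Subgroup G) → x = 1 := by
    rintro _ ⟨r, hr, rfl⟩ hT'
    have h1 : r ∈ (Q : Subgroup H) := (hQmem r).mpr hT'
    have h2 : r = 1 := by
      have := Subgroup.disjoint_def.mp hcomp.disjoint hr h1
      exact this
    simp [h2]
  have hTK : (T : Subgroup G) ≤ Subgroup.normalizer (K : Set G) := by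
    intro t ht
    apply Subgroup.mem_normalizer_fintype
    rintro _ ⟨r, hr, rfl⟩
    have h1 := hRn.conj_mem r hr ⟨t, hTH ht⟩
    exact ⟨_, h1, rfl⟩
  have hfac : ∀ a ∈ (T : Subgroup G), a ≠ 1 →
      ((K ⊓ Subgroup.centralizer {a} : Subgroup G) : Set G) =
        (((⊥ : Subgroup G) ⊓ Subgroup.centralizer {a} : Subgroup G) : Set G) *
        (((⊥ : Subgroup G) ⊓ Subgroup.centralizer {a} : Subgroup G) : Set G) := by
    intro a ha ha1
    have hK1 : K ⊓ Subgroup.centralizer {a} = ⊥ := by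
      rw [eq_bot_iff]
      rintro x ⟨hx1, hx2⟩
      have h1 : x ∈ N := hloc a ha ha1 hx2
      have h2 := hHN x (hKH x hx1) h1
      exact Subgroup.mem_bot.mpr (hKinf x hx1 h2)
    rw [hK1]
    simp
  have hK0 : (K : Set G) = ((⊥ : Subgroup G) : Set G) * ((⊥ : Subgroup G) : Set G) :=
    Cfsg.Agent.Lib.BrauerWielandt.factorization_of_noncyclic (p := 3) (T : Subgroup G) K ⊥ ⊥ hE
      (by rw [h27]; norm_num) (by rw [hcardK]; exact hR3) hTK bot_le bot_le
      (by
        intro t _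
        apply Subgroup.mem_normalizer_fintype
        intro n hn
        have h1 : n = 1 := hn
        simp [h1])
      (by
        intro t _
        apply Subgroup.mem_normalizer_fintype
        intro n hn
        have h1 : n = 1 := hn
        simp [h1])
      hfac
  have hK1 : K = ⊥ := by
    rw [eq_bot_iff]
    intro x hx
    have h1 : x ∈ (K : Set G) := hx
    rw [hK0] at h1
    simpa using h1
  have hR1 : Nat.card R = 1 := by
    rw [← hcardK, hK1]
    exact Subgroup.card_bot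
  have hcardH : Nat.card H = Nat.card (Q : Subgroup H) := by
    have := hcomp.card_mul_card
    rw [hR1, one_mul] at this
    exact this.symm
  have hcardQ : Nat.card (Q : Subgroup H) = Nat.card (T : Subgroup G) := by
    show Nat.card ((T.subtype hTH : Sylow 3 H) : Subgroup H) = _
    rw [Sylow.coe_subtype]
    exact Nat.card_congr (Subgroup.subgroupOfEquivOfLe hTH).toEquiv
  have hTeq : (T : Subgroup G) = H :=
    Subgroup.eq_of_le_of_card_ge hTH (by rw [hcardH, hcardQ])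
  have hTnorm : (T : Subgroup G).Normal := by
    rw [hTeq]
    exact hHn
  exact hTnorm

end Cfsg.Agent.Lib.H108Final
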