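import Mathlib
import Cfsg.Agent.Lib.CPGroups
import Cfsg.Agent.Lib.OddPGroup
import Cfsg.Agent.Lib.BurnsidePQ

/-!
# Elements of prime power order outside a normal subgroup

Part A: a group of prime-power-order elements with fixed-point-free modules in two different
characteristics is solvable.  Part B: a double product computation for Frobenius-type actions.
Part C: the minimal supplement argument.
-/

set_option autoImplicit false

namespace Cfsg.Agent.Lib.H59Cp

universe u

open Cfsg.Agent.Lib.CPGroups (CP centerOf centerOf_le centerOf_comm centerOf_ne_bot)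
open Cfsg.Agent.Lib.FrobAction

/-- `t` is good for `Γ`: there is a nontrivial abelian `t`-group on which all nontrivial
elements of prime power order prime to `t` act without nontrivial fixed points. -/
def Good (Γ : Type u) [Group Γ] (t : ℕ) : Prop :=
  ∃ (M : Type u) (_ : Group M) (_ : Finite M) (φ : Γ →* MulAut M),
    (∀ a b : M, a * b = b * a) ∧ IsPGroup t M ∧ Nontrivial M ∧
    ∀ γ : Γ, γ ≠ 1 → ∀ r k : ℕ, r.Prime → r ≠ t → orderOf γ = r ^ k →
      ∀ m : M, φ γ m = m → m = 1

theorem pow_inj {M : Type*} [Group M] {t : ℕ} (ht : t.Prime) (hM : IsPGroup t M) {n : ℕ}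
    (hn : Nat.Coprime t n) {v : M} (h : v ^ n = 1) : v = 1 := by
  obtain ⟨k, hk⟩ := hM v
  have h1 : orderOf v ∣ t ^ k := orderOf_dvd_of_pow_eq_one hk
  have h2 : orderOf v ∣ n := orderOf_dvd_of_pow_eq_one h
  have h3 : Nat.Coprime (t ^ k) n := Nat.Coprime.pow_left k hn
  have h4 : orderOf v = 1 := Nat.eq_one_of_dvd_coprimes h3 h1 h2
  exact orderOf_eq_one_iff.mp h4

section partA

variable {Γ : Type u} [Group Γ] [Finite Γ]

theorem rank_one {t r : ℕ} (ht : t.Prime) (hr : r.Prime) (hrt : r ≠ t) (hg : Good Γ t) {a b : Γ}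
    (hab : Commute a b) (ha : a ^ r = 1) (hb : b ^ r = 1) (hb1 : b ≠ 1) :
    a ∈ Subgroup.zpowers b := by
  obtain ⟨M, _, _, φ, hcomm, hMt, hnt, hfp⟩ := hg
  by_contra hnot
  haveI : Fact r.Prime := ⟨hr⟩
  have hob : orderOf b = r := orderOf_eq_prime hb hb1
  obtain ⟨v, hv⟩ := exists_ne (1 : M)
  have key := pow_card_eq_one_of_commuting_pair hcomm φ a b hab r hr ha hb
    (fun w hw => hfp b hb1 r 1 hr hrt (by simpa using hob) w hw)
    (fun y hy w hw => by
      have hne : a * y ≠ 1 := by
        intro h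
        apply hnot
        have : a = y⁻¹ := eq_inv_of_mul_eq_one_left h
        rw [this]
        exact Subgroup.inv_mem _ hy
      have hcy : Commute a y := by
        obtain ⟨k, rfl⟩ := hy
        exact hab.zpow_right k
      have hyr : y ^ r = 1 := by
        obtain ⟨k, rfl⟩ := hy
        show (b ^ k) ^ r = 1
        rw [← zpow_natCast, ← zpow_mul, mul_comm, zpow_mul, zpow_natCast, hb, one_zpow]
      have hpow : (a * y) ^ r = 1 := by rw [hcy.mul_pow, ha, hyr, one_mul]
      exact hfp (a * y) hne r 1 hr hrt (by simpa using orderOf_eq_prime hpow hne) w hw)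
    v
  rw [Nat.card_zpowers, hob] at key
  exact hv (pow_inj ht hMt ((Nat.coprime_primes ht hr).mpr (Ne.symm hrt)) key)

theorem sylow_cyclic {t r : ℕ} (ht : t.Prime) (hr : r.Prime) (hrt : r ≠ t) (hr2 : r ≠ 2)
    (hg : Good Γ t) [Fact r.Prime] (P : Sylow r Γ) : IsCyclic P := by
  have hP : IsPGroup r P := P.isPGroup'
  apply Cfsg.Agent.Lib.OddPGroup.isCyclic_of_unique hr2 hP
  intro H K hH hK
  have hntP : Nontrivial P := by
    by_contra hnt
    have h1 : Subsingleton P := not_nontrivial_iff_subsingleton.mp hnt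
    have h2 : Nat.card H = 1 := by
      have : Subsingleton H := inferInstance
      exact Nat.card_unique
    rw [h2] at hH
    exact hr.one_lt.ne hH
  have hcenter := hP.center_nontrivial
  have hdvd : r ∣ Nat.card (Subgroup.center P) := by
    obtain ⟨k, hk⟩ := IsPGroup.iff_card.mp (hP.to_subgroup (Subgroup.center P))
    rw [hk]
    have hk0 : k ≠ 0 := by
      rintro rfl
      rw [pow_zero] at hk
      exact (Finite.one_lt_card_iff_nontrivial.mpr hcenter).ne' hk
    exact dvd_pow_self r hk0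
  obtain ⟨z0, hz0⟩ := exists_prime_orderOf_dvd_card' r hdvd
  let z : P := (z0 : P)
  have hzord : orderOf z = r := by
    show orderOf ((z0 : P)) = r
    rw [Subgroup.orderOf_coe]
    exact hz0
  have hzne : ((z : P) : Γ) ≠ 1 := by
    intro h
    have h1 : z = 1 := Subtype.ext h
    rw [h1, orderOf_one] at hzord
    exact hr.one_lt.ne hzord
  have hzr : ((z : P) : Γ) ^ r = 1 := by
    have h1 : z ^ r = 1 := by
      have h0 := pow_orderOf_eq_one z
      rwa [hzord] at h0
    exact congrArg Subtype.val h1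
  have key : ∀ L : Subgroup P, Nat.card L = r → L = Subgroup.zpowers z := by
    intro L hL
    have hle : L ≤ Subgroup.zpowers z := by
      intro x hx
      have hxr : x ^ r = 1 := by
        have h1 : (⟨x, hx⟩ : L) ^ Nat.card L = 1 := pow_card_eq_one'
        rw [hL] at h1
        exact congrArg Subtype.val h1
      have hc : Commute ((x : P) : Γ) ((z : P) : Γ) := by
        have h1 := Subgroup.mem_center_iff.mp z0.2 x
        exact (congrArg Subtype.val h1)
      have h2 := rank_one ht hr hrt hg hc (congrArg Subtype.val hxr) hzr hzne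
      obtain ⟨k, hk⟩ := h2
      refine ⟨k, Subtype.ext ?_⟩
      simpa using hk
    apply Subgroup.eq_of_le_of_card_ge hle
    rw [Nat.card_zpowers, hzord, hL]
  rw [key H hH, key K hK]

theorem isSolvable_of_even {t : ℕ} (ht : t.Prime) (ht2 : t ≠ 2) (hcp : CP Γ) (hg : Good Γ t)
    {z : Γ} (hz : orderOf z = 2) : Group.IsSolvable Γ := by
  obtain ⟨M, _, _, φ, hcomm, hMt, hnt, hfp⟩ := hg
  obtain ⟨m0, hm0⟩ := exists_ne (1 : M)
  have : Fact t.Prime := ⟨ht⟩
  have h2p : Nat.Prime 2 := Nat.prime_two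
  have : Fact (Nat.Prime 2) := ⟨h2p⟩
  -- the kernel is a t-group
  have hK : IsPGroup t φ.ker := by
    rw [IsPGroup.iff_orderOf]
    rintro ⟨x, hx⟩
    rw [Subgroup.orderOf_mk]
    by_cases hx1 : x = 1
    · exact ⟨0, by simp [hx1]⟩
    obtain ⟨r, k, hr, hk0, hord⟩ := hcp x hx1
    have hr' : r.Prime := hr.nat_prime
    by_cases hrt : r = t
    · exact ⟨k, by rw [← hord, hrt]⟩
    · exfalso
      apply hm0
      apply hfp x hx1 r k hr' hrt hord.symm
      rw [MonoidHom.mem_ker.mp hx]
      rfl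
  -- z acts as inversion
  have hinv : ∀ m : M, φ z m = m⁻¹ := by
    intro m
    have hz2 : z * z = 1 := by
      have := pow_orderOf_eq_one z
      rw [hz, pow_two] at this
      exact this
    have hzne : z ≠ 1 := by
      intro h
      rw [h, orderOf_one] at hz
      omega
    have hfix : φ z (m * φ z m) = m * φ z m := by
      have h1 : φ z (φ z m) = m := by
        have : φ (z * z) m = m := by rw [hz2, map_one]; rfl
        rwa [map_mul] at this
      rw [map_mul, h1, hcomm]
    have h3 := hfp z hzne 2 1 h2p (Ne.symm ht2) (by simpa using hz) _ hfix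
    exact eq_inv_of_mul_eq_one_right h3
  have hcommz : ∀ g : Γ, Commute (φ g) (φ z) := by
    intro g
    ext m
    show φ g (φ z m) = φ z (φ g m)
    rw [hinv, hinv, map_inv]
  have hφz1 : φ z ≠ 1 := by
    intro h
    have h1 : φ z m0 = m0 := by rw [h]; rfl
    rw [hinv] at h1
    have h2 : m0 ^ 2 = 1 := by
      rw [pow_two]
      nth_rewrite 1 [← h1]
      simp
    exact hm0 (pow_inj ht hMt ((Nat.coprime_primes ht h2p).mpr ht2) h2)
  have hφz2 : orderOf (φ z) = 2 := by
    apply orderOf_eq_prime _ hφz1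
    rw [← map_pow, ← hz, pow_orderOf_eq_one, map_one]
  -- odd prime power elements are in the kernel
  have hodd : ∀ x : Γ, ∀ r k : ℕ, r.Prime → r ≠ 2 → orderOf x = r ^ k → φ x = 1 := by
    intro x r k hr hr2 hord
    by_contra hne
    have hd : orderOf (φ x) ∣ r ^ k := hord ▸ orderOf_map_dvd φ x
    obtain ⟨j, hj, hjo⟩ := (Nat.dvd_prime_pow hr).mp hd
    have hj0 : j ≠ 0 := by
      rintro rfl
      rw [pow_zero] at hjo
      exact hne (orderOf_eq_one_iff.mp hjo)
    have hcop : Nat.Coprime (orderOf (φ x)) (orderOf (φ z)) := by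
      rw [hjo, hφz2]
      exact Nat.Coprime.pow_left j ((Nat.coprime_primes hr h2p).mpr hr2)
    have hordy := (hcommz x).orderOf_mul_eq_mul_orderOf_of_coprime hcop
    rw [← map_mul] at hordy
    have hdy : orderOf (φ (x * z)) ∣ orderOf (x * z) := orderOf_map_dvd φ (x * z)
    have hyne : x * z ≠ 1 := by
      intro h
      rw [h, map_one, orderOf_one, hjo, hφz2] at hordy
      have : 2 ∣ 1 := by rw [hordy]; exact Dvd.intro_left _ rfl
      omega
    obtain ⟨s, e, hs, he0, hse⟩ := hcp _ hyne
    have hs' : s.Prime := hs.nat_prime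
    have hd2 : 2 ∣ s ^ e := by
      rw [hse]
      apply dvd_trans _ hdy
      rw [hordy, hφz2]
      exact Dvd.intro_left _ rfl
    have hdr : r ∣ s ^ e := by
      rw [hse]
      apply dvd_trans _ hdy
      rw [hordy, hjo]
      exact Dvd.dvd.mul_right (dvd_pow_self r hj0) _
    have h1 := (Nat.prime_dvd_prime_iff_eq h2p hs').mp (h2p.dvd_of_dvd_pow hd2)
    have h2 := (Nat.prime_dvd_prime_iff_eq hr hs').mp (hr.dvd_of_dvd_pow hdr)
    exact hr2 (h2.trans h1.symm)
  -- the image is a 2-group
  have hrange : IsPGroup 2 φ.range := by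
    rw [IsPGroup.iff_orderOf]
    intro y
    rw [← Subgroup.orderOf_coe]
    obtain ⟨x, hx⟩ := y.2
    rw [← hx]
    by_cases hx1 : x = 1
    · exact ⟨0, by simp [hx1]⟩
    obtain ⟨r, k, hr, hk0, hord⟩ := hcp x hx1
    have hr' : r.Prime := hr.nat_prime
    by_cases hr2 : r = 2
    · have hd : orderOf (φ x) ∣ 2 ^ k := by
        rw [← hr2, hord]
        exact orderOf_map_dvd φ x
      obtain ⟨j, _, hj⟩ := (Nat.dvd_prime_pow h2p).mp hd
      exact ⟨j, hj⟩
    · have := hodd x r k hr' hr2 hord.symm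
      exact ⟨0, by simp [this]⟩
  have h1 : Group.IsSolvable φ.ker := Cfsg.Agent.Lib.CPGroups.isSolvable_of_isPGroup hK
  have h2 : Group.IsSolvable φ.range := Cfsg.Agent.Lib.CPGroups.isSolvable_of_isPGroup hrange
  refine Group.isSolvable_of_ker_le_range (φ.ker).subtype φ.rangeRestrict ?_
  rw [MonoidHom.ker_rangeRestrict, Subgroup.range_subtype]

theorem isSolvable_of_two_good {t₁ t₂ : ℕ} (h₁ : t₁.Prime) (h₂ : t₂.Prime) (hne : t₁ ≠ t₂)
    (hcp : CP Γ) (g₁ : Good Γ t₁) (g₂ : Good Γ t₂) : Group.IsSolvable Γ := by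
  by_cases heven : ∃ z : Γ, orderOf z = 2
  · obtain ⟨z, hz⟩ := heven
    by_cases h12 : t₁ = 2
    · exact isSolvable_of_even h₂ (fun h => hne (h12.trans h.symm)) hcp g₂ hz
    · exact isSolvable_of_even h₁ h12 hcp g₁ hz
  · have hz : IsZGroup Γ := by
      refine ⟨fun p hp P => ?_⟩
      have : Fact p.Prime := ⟨hp⟩
      by_cases hp2 : p = 2
      · -- the Sylow 2-subgroup is trivial
        subst hp2
        have hcard : ¬ 2 ∣ Nat.card Γ := by
          intro hd
          obtain ⟨z, hz⟩ := exists_prime_orderOf_dvd_card' 2 hd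
          exact heven ⟨z, hz⟩
        have h1 : Nat.card P = 1 := by
          obtain ⟨k, hk⟩ := IsPGroup.iff_card.mp P.isPGroup'
          have hd : Nat.card P ∣ Nat.card Γ := Subgroup.card_subgroup_dvd_card _
          rw [hk] at hd ⊢
          rcases k with _ | k
          · simp
          · exfalso
            apply hcard
            exact dvd_trans (dvd_pow_self 2 (Nat.succ_ne_zero k)) hd
        have : Subsingleton P := (Nat.card_eq_one_iff_unique.mp h1).1
        exact isCyclic_of_subsingleton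
      · by_cases hp1 : p = t₁
        · exact sylow_cyclic h₂ hp (fun h => hne (hp1.symm.trans h)) hp2 g₂ P
        · exact sylow_cyclic h₁ hp hp1 hp2 g₁ P
    infer_instance

end partA

section partB

/-- Double product: for a Frobenius type action with `Y` having trivial fixed points on
the abelian `V`, the subgroup `P` acts trivially on `V` whenever `|P|`-th powers are injective. -/
theorem frob_trivial {L V : Type*} [Group L] [Finite L] [Group V] (hcomm : ∀ a b : V, a * b = b * a)
    (ρ : L →* MulAut V) (P Y : Subgroup L)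
    (hYP : ∀ c ∈ Y, ∀ x ∈ P, c * x * c⁻¹ ∈ P)
    (hfpf : ∀ c ∈ Y, c ≠ 1 → ∀ x ∈ P, x * c = c * x → x = 1)
    (hY : ∀ v : V, (∀ c ∈ Y, ρ c v = v) → v = 1)
    (hinj : ∀ a b : V, a ^ Nat.card P = b ^ Nat.card P → a = b) :
    ∀ x ∈ P, ∀ v : V, ρ x v = v := by
  classical
  cases nonempty_fintype P
  cases nonempty_fintype Y
  let _ : CommGroup V := commGroupOfComm V hcomm
  have hNY : ∀ w : V, ∏ c : Y, ρ (c : L) w = 1 := by
    intro w
    apply hY
    intro y hy
    rw [map_prod]
    apply Fintype.prod_equiv (Equiv.mulLeft (⟨y, hy⟩ : Y))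
    intro x
    simp
  have key : ∀ v : V, ∏ x : P, ρ (x : L) v = v ^ Nat.card P := by
    intro v
    have hS1 : ∏ x : P, ∏ c : Y, ρ ((x : L) * (c : L) * (x : L)⁻¹) v = 1 := by
      apply Finset.prod_eq_one
      intro x _
      have : ∏ c : Y, ρ ((x : L) * (c : L) * (x : L)⁻¹) v =
          ρ (x : L) (∏ c : Y, ρ (c : L) (ρ (x : L)⁻¹ v)) := by
        rw [map_prod]
        apply Finset.prod_congr rfl
        intro c _
        rw [map_mul, map_mul, map_inv]
        rfl
      rw [this, hNY, map_one]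
    set τ : V := ∏ x : P, ρ (x : L) v with hτ
    have hfg : ∀ c : Y, c ≠ 1 →
        ∏ x : P, ρ ((x : L) * (c : L) * (x : L)⁻¹) v = ρ (c : L) τ := by
      intro c hc
      have hc' : (c : L) ≠ 1 := fun h => hc (Subtype.ext h)
      -- x ↦ x * (c x⁻¹ c⁻¹) is a bijection of P
      let φ : P → P := fun x => x * ⟨(c : L) * (x : L)⁻¹ * (c : L)⁻¹, hYP c c.2 _ (P.inv_mem x.2)⟩
      have hφinj : Function.Injective φ := by
        intro x x' h
        have h1 : (x : L) * ((c : L) * (x : L)⁻¹ * (c : L)⁻¹) =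
            (x' : L) * ((c : L) * (x' : L)⁻¹ * (c : L)⁻¹) := congrArg Subtype.val h
        have hu : (x' : L)⁻¹ * (x : L) ∈ P := P.mul_mem (P.inv_mem x'.2) x.2
        have h2 : ((x' : L)⁻¹ * (x : L)) * (c : L) = (c : L) * ((x' : L)⁻¹ * (x : L)) := by
          have h3 : (x' : L)⁻¹ * (x : L) = (c : L) * (x' : L)⁻¹ * (c : L)⁻¹ * ((c : L) * (x : L)⁻¹ * (c : L)⁻¹)⁻¹ := by
            calc (x' : L)⁻¹ * (x : L) = (x' : L)⁻¹ * ((x : L) * ((c : L) * (x : L)⁻¹ * (c : L)⁻¹)) * ((c : L) * (x : L)⁻¹ * (c : L)⁻¹)⁻¹ := by group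
              _ = (x' : L)⁻¹ * ((x' : L) * ((c : L) * (x' : L)⁻¹ * (c : L)⁻¹)) * ((c : L) * (x : L)⁻¹ * (c : L)⁻¹)⁻¹ := by rw [h1]
              _ = _ := by group
          calc ((x' : L)⁻¹ * (x : L)) * (c : L) = ((c : L) * (x' : L)⁻¹ * (c : L)⁻¹ * ((c : L) * (x : L)⁻¹ * (c : L)⁻¹)⁻¹) * (c : L) := by rw [← h3]
            _ = (c : L) * ((x' : L)⁻¹ * (x : L)) := by group
        have h4 := hfpf c c.2 hc' _ hu h2
        have h5 : (x : L) = (x' : L) := by
          have := congrArg (fun z => (x' : L) * z) h4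
          simpa using this
        exact Subtype.ext h5
      have hφbij : Function.Bijective φ := Finite.injective_iff_bijective.mp hφinj
      have h1 : ∏ x : P, ρ ((x : L) * (c : L) * (x : L)⁻¹) v =
          ∏ x : P, ρ ((φ x : P) : L) (ρ (c : L) v) := by
        apply Finset.prod_congr rfl
        intro x _
        have : (x : L) * (c : L) * (x : L)⁻¹ = ((φ x : P) : L) * (c : L) := by
          show (x : L) * (c : L) * (x : L)⁻¹ = ((x : L) * ((c : L) * (x : L)⁻¹ * (c : L)⁻¹)) * (c : L)
          group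
        rw [this, map_mul]
        rfl
      rw [h1, hφbij.prod_comp (fun x : P => ρ (x : L) (ρ (c : L) v)), hτ, map_prod]
      -- reindex by conjugation by c
      let ψ : P → P := fun x => ⟨(c : L) * (x : L) * (c : L)⁻¹, hYP c c.2 _ x.2⟩
      have hψinj : Function.Injective ψ := by
        intro x x' h
        have h1 : (c : L) * (x : L) * (c : L)⁻¹ = (c : L) * (x' : L) * (c : L)⁻¹ :=
          congrArg Subtype.val h
        apply Subtype.ext
        simpa using h1
      have hψbij : Function.Bijective ψ := Finite.injective_iff_bijective.mp hψinj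
      rw [← hψbij.prod_comp (fun x : P => ρ (x : L) (ρ (c : L) v))]
      apply Finset.prod_congr rfl
      intro x _
      show ρ ((c : L) * (x : L) * (c : L)⁻¹) (ρ (c : L) v) = ρ (c : L) (ρ (x : L) v)
      rw [map_mul, map_mul, map_inv]
      simp
    have hS2 : ∏ c : Y, ∏ x : P, ρ ((x : L) * (c : L) * (x : L)⁻¹) v = 1 := by
      rw [Finset.prod_comm, hS1]
    have hS3 : ∏ c : Y, (∏ x : P, ρ ((x : L) * (c : L) * (x : L)⁻¹) v) * (ρ (c : L) τ)⁻¹ = 1 := by
      rw [Finset.prod_mul_distrib, Finset.prod_inv_distrib, hS2, hNY, one_mul, inv_one]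
    rw [Finset.prod_eq_single (1 : Y)] at hS3
    · have h0 : ∀ x : P, ρ ((x : L) * (((1 : Y) : L)) * (x : L)⁻¹) v = v := by
        intro x
        have : (x : L) * (((1 : Y) : L)) * (x : L)⁻¹ = 1 := by simp
        rw [this, map_one]
        rfl
      rw [Finset.prod_congr rfl (fun x _ => h0 x), Finset.prod_const, Finset.card_univ,
        ← Nat.card_eq_fintype_card] at hS3
      have h1 : ρ (((1 : Y) : L)) τ = τ := by
        show ρ 1 τ = τ
        rw [map_one]
        rfl
      rw [h1] at hS3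
      exact (mul_inv_eq_one.mp hS3).symm
    · intro c _ hc
      rw [hfg c hc, mul_inv_cancel]
    · simp
  intro x hx v
  apply hinj
  rw [← key, ← key]
  apply Fintype.prod_equiv (Equiv.mulRight (⟨x, hx⟩ : P))
  intro y
  simp [map_mul]

end partB

section parts

variable {L : Type u} [Group L] [Finite L] (U : Subgroup L) [hUn : U.Normal]
  [hnil : Group.IsNilpotent U]

/-- The Sylow subgroup of a nilpotent normal subgroup. -/
noncomputable def part (s : ℕ) [Fact s.Prime] : Subgroup L :=
  ((Classical.arbitrary (Sylow s U) : Sylow s U) : Subgroup U).map U.subtype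

instance part_normal (s : ℕ) [Fact s.Prime] : (part U s).Normal := by
  have h1 : ((Classical.arbitrary (Sylow s U) : Sylow s U) : Subgroup U).Normal := inferInstance
  have h2 : ((Classical.arbitrary (Sylow s U) : Sylow s U) : Subgroup U).Characteristic :=
    Sylow.characteristic_of_normal _ h1
  unfold part
  infer_instance

omit hUn hnil in
theorem part_le (s : ℕ) [Fact s.Prime] : part U s ≤ U := by
  unfold part
  rintro _ ⟨x, _, rfl⟩
  exact x.2

omit hUn hnil in
theorem part_isP (s : ℕ) [Fact s.Prime] : IsPGroup s (part U s) := by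
  unfold part
  exact (Sylow.isPGroup' _).map U.subtype

theorem part_commute {s r : ℕ} [Fact s.Prime] [Fact r.Prime] (hsr : s ≠ r) {x y : L}
    (hx : x ∈ part U s) (hy : y ∈ part U r) : x * y = y * x := by
  have hdis : Disjoint (part U s) (part U r) :=
    IsPGroup.disjoint_of_ne s r hsr _ _ (part_isP U s) (part_isP U r)
  exact Subgroup.commute_of_normal_of_disjoint _ _ inferInstance inferInstance hdis x y hx hy

omit hUn hnil in
theorem part_ne_bot {s : ℕ} [Fact s.Prime] (hs : s ∣ Nat.card U) : part U s ≠ ⊥ := by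
  unfold part
  intro h
  rw [Subgroup.map_eq_bot_iff_of_injective _ U.subtype_injective] at h
  exact Sylow.ne_bot_of_dvd_card _ hs h

omit hUn hnil in
theorem le_of_parts (H : Subgroup L) (hH : ∀ (p : ℕ) (_ : Fact p.Prime), part U p ≤ H) : U ≤ H := by
  have h1 : (H.subgroupOf U).index = 1 := by
    by_contra hne
    obtain ⟨p, hp, hpd⟩ := Nat.exists_prime_and_dvd hne
    have : Fact p.Prime := ⟨hp⟩
    let P : Sylow p U := Classical.arbitrary _
    have hle : (P : Subgroup U) ≤ H.subgroupOf U := by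
      intro x hx
      rw [Subgroup.mem_subgroupOf]
      exact hH p ⟨hp⟩ ⟨x, hx, rfl⟩
    exact P.not_dvd_index (dvd_trans hpd (Subgroup.index_dvd_of_le hle))
  rw [Subgroup.index_eq_one, Subgroup.subgroupOf_eq_top] at h1
  exact h1

theorem mem_centerOf_iff {G : Type*} [Group G] (N : Subgroup G) (m : G) :
    m ∈ centerOf N ↔ m ∈ N ∧ ∀ p ∈ N, m * p = p * m := by
  constructor
  · rintro ⟨x, hx, rfl⟩
    refine ⟨x.2, fun p hp => ?_⟩
    have h1 := Subgroup.mem_center_iff.mp hx ⟨p, hp⟩
    exact (congrArg Subtype.val h1).symm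
  · rintro ⟨h1, h2⟩
    refine ⟨⟨m, h1⟩, ?_, rfl⟩
    rw [SetLike.mem_coe, Subgroup.mem_center_iff]
    intro p
    exact Subtype.ext (h2 p.1 p.2).symm

theorem part_central {s : ℕ} [Fact s.Prime] {u m : L} (hu : u ∈ U) (hm : m ∈ centerOf (part U s)) :
    u * m = m * u := by
  have hle : U ≤ Subgroup.centralizer (({m} : Set L)) := by
    apply le_of_parts U
    intro p _
    intro x hx
    rw [Subgroup.mem_centralizer_iff]
    intro y hy
    rw [Set.mem_singleton_iff] at hy
    subst hy
    have hm' := (mem_centerOf_iff _ _).mp hm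
    by_cases hps : p = s
    · subst hps
      exact hm'.2 x hx
    · exact part_commute U (Ne.symm hps) hm'.1 hx
  have h1 := Subgroup.mem_centralizer_iff.mp (hle hu) m rfl
  exact h1.symm

end parts

section partC

theorem good_of_L {L M Γ : Type u} [Group L] [Group M] [Finite M] [Group Γ] {t : ℕ}
    (π : L →* Γ) (hπ : Function.Surjective π) (ψ : L →* MulAut M) (hker : π.ker ≤ ψ.ker)
    (hcomm : ∀ a b : M, a * b = b * a) (hMt : IsPGroup t M) (hnt : Nontrivial M)
    (hfp : ∀ y : L, π y ≠ 1 → ∀ r k : ℕ, r.Prime → r ≠ t → orderOf (π y) = r ^ k →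
      ∀ m : M, ψ y m = m → m = 1) : Good Γ t := by
  let φ : Γ →* MulAut M := π.liftOfSurjective hπ ⟨ψ, hker⟩
  have hφ : ∀ y, φ (π y) = ψ y := fun y => π.liftOfRightInverse_comp_apply _ _ ⟨ψ, hker⟩ y
  refine ⟨M, inferInstance, inferInstance, φ, hcomm, hMt, hnt, ?_⟩
  intro γ hγ r k hr hrt hord m hm
  obtain ⟨y, rfl⟩ := hπ γ
  exact hfp y hγ r k hr hrt hord m (by rwa [hφ] at hm)

variable {G : Type u} [Group G] [Finite G] (N : Subgroup G)

theorem eq_of_dvd_primePow {m p q : ℕ} (hm : IsPrimePow m) (hp : p.Prime) (hq : q.Prime)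
    (hpm : p ∣ m) (hqm : q ∣ m) : p = q := by
  obtain ⟨s, k, hs, -, rfl⟩ := hm
  have hs' : s.Prime := hs.nat_prime
  have h1 := (Nat.prime_dvd_prime_iff_eq hp hs').mp (hp.dvd_of_dvd_pow hpm)
  have h2 := (Nat.prime_dvd_prime_iff_eq hq hs').mp (hq.dvd_of_dvd_pow hqm)
  omega

/-- An element outside `N` of `r`-power order has no `t`-elements of `N` (`t ≠ r`) in its
centralizer. -/
theorem comm_eq_one (h : ∀ x : G, x ∉ N → IsPrimePow (orderOf x)) {y m : G} {r k t j : ℕ}
    (hr : r.Prime) (ht : t.Prime) (hrt : r ≠ t) (hy : y ∉ N) (hord : orderOf y = r ^ k)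
    (hm : m ∈ N) (hmt : m ^ t ^ j = 1) (hc : y * m = m * y) : m = 1 := by
  by_contra hne
  have hd : orderOf m ∣ t ^ j := orderOf_dvd_of_pow_eq_one hmt
  obtain ⟨i, _, hi⟩ := (Nat.dvd_prime_pow ht).mp hd
  have hi0 : i ≠ 0 := by
    rintro rfl
    rw [pow_zero] at hi
    exact hne (orderOf_eq_one_iff.mp hi)
  have htm : t ∣ orderOf m := hi ▸ dvd_pow_self t hi0
  have hm' : orderOf (m ^ (orderOf m / t)) = t := orderOf_pow_orderOf_div (orderOf_pos m).ne' htm
  set m' := m ^ (orderOf m / t) with hm'def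
  have hm'N : m' ∈ N := N.pow_mem hm _
  have hcomm : Commute y m' := (show Commute y m from hc).pow_right _
  have hcop : Nat.Coprime (orderOf y) (orderOf m') := by
    rw [hord, hm']
    exact Nat.Coprime.pow_left _ ((Nat.coprime_primes hr ht).mpr hrt)
  have hord2 := hcomm.orderOf_mul_eq_mul_orderOf_of_coprime hcop
  have hxn : y * m' ∉ N := fun hmem => hy (by simpa using N.mul_mem hmem (N.inv_mem hm'N))
  have hpp := h _ hxn
  rw [hord2] at hpp
  have hk0 : k ≠ 0 := by
    rintro rfl
    rw [pow_zero] at hord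
    apply hy
    rw [orderOf_eq_one_iff.mp hord]
    exact N.one_mem
  have hpd : r ∣ orderOf y * orderOf m' := Dvd.dvd.mul_right (hord ▸ dvd_pow_self r hk0) _
  have hqd : t ∣ orderOf y * orderOf m' := Dvd.dvd.mul_left (hm' ▸ dvd_rfl) _
  exact hrt (eq_of_dvd_primePow hpp hr ht hpd hqd)

variable [hN : N.Normal]

/-- Version with the order of the image in the quotient. -/
theorem comm_eq_one' (h : ∀ x : G, x ∉ N → IsPrimePow (orderOf x)) {y m : G} {r k t j : ℕ}
    (hr : r.Prime) (ht : t.Prime) (hrt : r ≠ t) (hy : (y : G ⧸ N) ≠ 1)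
    (hord : orderOf (y : G ⧸ N) = r ^ k)
    (hm : m ∈ N) (hmt : m ^ t ^ j = 1) (hc : y * m = m * y) : m = 1 := by
  have hyN : y ∉ N := fun hmem => hy ((QuotientGroup.eq_one_iff y).mpr hmem)
  obtain ⟨s, e, hs, he0, hse⟩ := h y hyN
  have hs' : s.Prime := hs.nat_prime
  have hk0 : k ≠ 0 := by
    rintro rfl
    rw [pow_zero] at hord
    exact hy (orderOf_eq_one_iff.mp hord)
  have hd : orderOf (y : G ⧸ N) ∣ orderOf y := orderOf_map_dvd (QuotientGroup.mk' N) y
  have hrd : r ∣ s ^ e := by
    rw [hse]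
    apply dvd_trans _ hd
    rw [hord]
    exact dvd_pow_self r hk0
  have hrs := (Nat.prime_dvd_prime_iff_eq hr hs').mp (hr.dvd_of_dvd_pow hrd)
  subst hrs
  exact comm_eq_one N h hr ht hrt hyN hse.symm hm hmt hc

end partC

section dichotomy

theorem two_primes_factor {n q s : ℕ} (hn : n ≠ 0) (hq : q.Prime) (hs : s.Prime)
    (h : ∀ r : ℕ, r.Prime → r ∣ n → r = q ∨ r = s) : ∃ a b, n = q ^ a * s ^ b := by
  refine ⟨n.factorization q, (ordCompl[q] n).primeFactorsList.length, ?_⟩
  have h1 : ordCompl[q] n = s ^ (ordCompl[q] n).primeFactorsList.length := by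
    apply Nat.eq_prime_pow_of_unique_prime_dvd
    · exact (Nat.ordCompl_pos q hn).ne'
    · intro d hd hdv
      rcases h d hd (dvd_trans hdv (Nat.ordCompl_dvd n q)) with h2 | h2
      · subst h2
        exact absurd hdv (Nat.not_dvd_ordCompl hd hn)
      · exact h2
  rw [← h1]
  exact (Nat.ordProj_mul_ordCompl_eq_self n q).symm

variable {G : Type u} [Group G] [Finite G] (N : Subgroup G) [hN : N.Normal]

omit [Finite G] hN in
theorem normalizer_le_centerOf (P : Subgroup G) :
    Subgroup.normalizer (P : Set G) ≤ Subgroup.normalizer (centerOf P : Set G) := by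
  intro y hy
  rw [Subgroup.mem_normalizer_iff] at hy ⊢
  intro m
  show m ∈ centerOf P ↔ y * m * y⁻¹ ∈ centerOf P
  rw [mem_centerOf_iff, mem_centerOf_iff]
  constructor
  · rintro ⟨h1, h2⟩
    refine ⟨(hy m).mp h1, fun p hp => ?_⟩
    have hp' : y⁻¹ * p * y ∈ P := by
      have := (hy (y⁻¹ * p * y)).mpr (by simpa [mul_assoc] using hp)
      exact this
    have := h2 _ hp'
    calc y * m * y⁻¹ * p = y * (m * (y⁻¹ * p * y)) * y⁻¹ := by group
      _ = y * ((y⁻¹ * p * y) * m) * y⁻¹ := by rw [this]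
      _ = p * (y * m * y⁻¹) := by group
  · rintro ⟨h1, h2⟩
    refine ⟨(hy m).mpr h1, fun p hp => ?_⟩
    have hp' : y * p * y⁻¹ ∈ P := (hy p).mp hp
    have := h2 _ hp'
    have h3 : y * (m * p) * y⁻¹ = y * (p * m) * y⁻¹ := by
      calc y * (m * p) * y⁻¹ = y * m * y⁻¹ * (y * p * y⁻¹) := by group
        _ = y * p * y⁻¹ * (y * m * y⁻¹) := this
        _ = y * (p * m) * y⁻¹ := by group
    exact mul_left_cancel (mul_right_cancel h3)

omit [Finite G] hN in
theorem mem_of_normalizer [Finite N] {q : ℕ} [Fact q.Prime] (Q : Sylow q N) {x : G} (hxN : x ∈ N)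
    {j : ℕ} (hxq : x ^ q ^ j = 1)
    (hxnorm : x ∈ Subgroup.normalizer (((Q : Subgroup N).map N.subtype : Subgroup G) : Set G)) :
    x ∈ (Q : Subgroup N).map N.subtype := by
  let x' : N := ⟨x, hxN⟩
  have hx'q : x' ^ q ^ j = 1 := Subtype.ext hxq
  have hP : IsPGroup q (Subgroup.zpowers x') := by
    rw [IsPGroup.iff_card, Nat.card_zpowers]
    have hd : orderOf x' ∣ q ^ j := orderOf_dvd_of_pow_eq_one hx'q
    obtain ⟨i, _, hi⟩ := (Nat.dvd_prime_pow Fact.out).mp hd
    exact ⟨i, hi⟩
  have hn : x' ∈ Subgroup.normalizer ((Q : Subgroup N) : Set N) := by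
    rw [Subgroup.mem_normalizer_iff]
    intro n
    have h1 := Subgroup.mem_normalizer_iff.mp hxnorm (n : G)
    have hiff : ∀ w : N, w ∈ (Q : Subgroup N) ↔ (w : G) ∈ (Q : Subgroup N).map N.subtype := by
      intro w
      constructor
      · intro hw
        exact ⟨w, hw, rfl⟩
      · rintro ⟨w', hw', he⟩
        have : w' = w := Subtype.ext he
        rwa [← this]
    rw [hiff n, hiff (x' * n * x'⁻¹)]
    exact h1
  have h2 := hP.inf_normalizer_sylow Q
  have h3 : x' ∈ Subgroup.zpowers x' ⊓ Subgroup.normalizer ((Q : Subgroup N) : Set N) :=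
    ⟨Subgroup.mem_zpowers x', hn⟩
  exact ⟨x', (h2.le h3).2, rfl⟩

theorem dichotomy (h : ∀ x : G, x ∉ N → IsPrimePow (orderOf x)) (hns : ¬ Group.IsSolvable (G ⧸ N))
    {q : ℕ} [hq : Fact q.Prime] (hqd : q ∣ Nat.card N) :
    Good (G ⧸ N) q ∨ ∃ s r : ℕ, s.Prime ∧ r.Prime ∧ s ≠ r ∧ Good (G ⧸ N) s ∧ Good (G ⧸ N) r := by
  classical
  let Q : Sylow q N := Classical.arbitrary _
  let Q' : Subgroup G := (Q : Subgroup N).map N.subtype
  have hX : Subgroup.normalizer (Q' : Set G) ⊔ N = ⊤ := Sylow.normalizer_sup_eq_top Q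
  obtain ⟨Y, hYmin⟩ := (Set.toFinite {Y : Subgroup G | Y ≤ Subgroup.normalizer (Q' : Set G) ∧
    Y ⊔ N = ⊤}).exists_minimal ⟨_, le_rfl, hX⟩
  obtain ⟨hYle, hYsup⟩ := hYmin.prop
  let U : Subgroup Y := N.subgroupOf Y
  haveI hUn : U.Normal := inferInstance
  have hUfr : U ≤ frattini Y := by
    simp only [frattini, Order.radical, le_iInf_iff]
    intro K hK
    by_contra hnle
    have hsup : K ⊔ U = ⊤ :=
      hK.2 _ (lt_of_le_of_ne le_sup_left (fun he => hnle (he ▸ le_sup_right)))
    have hM : K.map Y.subtype ⊔ N = ⊤ := by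
      rw [eq_top_iff, ← hYsup]
      apply sup_le _ le_sup_right
      intro y hy
      have h1 : y ∈ (K ⊔ U).map Y.subtype := ⟨⟨y, hy⟩, by rw [hsup]; trivial, rfl⟩
      rw [Subgroup.map_sup] at h1
      have hsl : K.map Y.subtype ⊔ U.map Y.subtype ≤ K.map Y.subtype ⊔ N :=
        sup_le_sup_left (by
          show (N.subgroupOf Y).map Y.subtype ≤ N
          rw [Subgroup.subgroupOf_map_subtype]
          exact inf_le_left) _
      exact hsl h1
    have hKle : K.map Y.subtype ≤ Y := Subgroup.map_subtype_le K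
    have hle2 := hYmin.2 ⟨hKle.trans hYle, hM⟩ hKle
    apply hK.1
    rw [eq_top_iff]
    intro x _
    obtain ⟨x', hx', he⟩ := hle2 x.2
    have : x' = x := Subtype.ext he
    rwa [← this]
  haveI hnil : Group.IsNilpotent U := by
    haveI := frattini_nilpotent (G := Y)
    exact Group.nilpotent_of_mulEquiv (Subgroup.subgroupOfEquivOfLe hUfr)
  let π : Y →* G ⧸ N := (QuotientGroup.mk' N).comp Y.subtype
  have hπ : Function.Surjective π := by
    intro g
    induction g using QuotientGroup.induction_on with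
    | H g =>
      have hg : g ∈ Y ⊔ N := by rw [hYsup]; trivial
      rw [← SetLike.mem_coe, Subgroup.mul_normal] at hg
      obtain ⟨y, hy, n, hn, rfl⟩ := hg
      refine ⟨⟨y, hy⟩, ?_⟩
      show ((y : G) : G ⧸ N) = ((y * n : G) : G ⧸ N)
      rw [QuotientGroup.mk_mul, (QuotientGroup.eq_one_iff n).mpr hn, mul_one]
  have hπ1 : ∀ y : Y, π y = 1 ↔ y ∈ U := by
    intro y
    show ((y : G) : G ⧸ N) = 1 ↔ _
    rw [QuotientGroup.eq_one_iff, Subgroup.mem_subgroupOf]
  have hπco : ∀ y : Y, π y = ((y : G) : G ⧸ N) := fun _ => rfl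
  -- the centre of the Sylow subgroup
  have hQ'p : IsPGroup q Q' := (Sylow.isPGroup' Q).map N.subtype
  have hQ'N : Q' ≤ N := by
    rintro _ ⟨x, _, rfl⟩
    exact x.2
  have hQ'ne : Q' ≠ ⊥ := by
    intro h0
    exact Sylow.ne_bot_of_dvd_card Q hqd
      ((Subgroup.map_eq_bot_iff_of_injective _ N.subtype_injective).mp h0)
  let Z : Subgroup G := centerOf Q'
  have hZN : Z ≤ N := (centerOf_le Q').trans hQ'N
  have hZq : IsPGroup q Z := hQ'p.to_le (centerOf_le Q')
  have hZne : Z ≠ ⊥ := centerOf_ne_bot hq.out hQ'p hQ'ne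
  have hYZ : Y ≤ Subgroup.normalizer (Z : Set G) := hYle.trans (normalizer_le_centerOf Q')
  let ψ₀ : Y →* MulAut Z := (Z.normalizerMonoidHom).comp (Subgroup.inclusion hYZ)
  have hψ₀ : ∀ (y : Y) (m : Z), ((ψ₀ y m : Z) : G) = (y : G) * m * (y : G)⁻¹ := fun _ _ => rfl
  have hZc : ∀ a b : Z, a * b = b * a := centerOf_comm Q'
  have hZt : Nontrivial Z := (Subgroup.nontrivial_iff_ne_bot Z).mpr hZne
  -- parts give good primes
  have goodPart : ∀ (s : ℕ) [Fact s.Prime], s ∣ Nat.card U → Good (G ⧸ N) s := by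
    intro s _ hs
    have hne := part_ne_bot U hs
    have hsp : IsPGroup s (part U s) := part_isP U s
    have hZsne : centerOf (part U s) ≠ ⊥ := centerOf_ne_bot Fact.out hsp hne
    refine good_of_L (M := centerOf (part U s)) π hπ MulAut.conjNormal ?_ (centerOf_comm _)
      (hsp.to_le (centerOf_le _)) ((Subgroup.nontrivial_iff_ne_bot _).mpr hZsne) ?_
    · intro y hy
      rw [MonoidHom.mem_ker] at hy ⊢
      have hyU := (hπ1 y).mp hy
      refine MulEquiv.ext fun m => Subtype.ext ?_
      show y * (m : Y) * y⁻¹ = (m : Y)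
      rw [part_central U hyU m.2]
      group
    · intro y hy r k hr hrs hord m hm
      have hm' : (y : Y) * (m : Y) * y⁻¹ = m := congrArg Subtype.val hm
      have hc : y * (m : Y) = (m : Y) * y := by
        calc y * (m : Y) = (y * (m : Y) * y⁻¹) * y := by group
          _ = (m : Y) * y := by rw [hm']
      obtain ⟨j, hj⟩ := hsp.to_le (centerOf_le _) m
      have hj' : (m : Y) ^ s ^ j = 1 := congrArg Subtype.val hj
      have hmU : (m : Y) ∈ U := part_le U s (centerOf_le _ m.2)
      have h1 := comm_eq_one' N h (y := (y : G)) (m := ((m : Y) : G)) hr Fact.out hrs hy hord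
        (Subgroup.mem_subgroupOf.mp hmU) (congrArg Subtype.val hj') (congrArg Subtype.val hc)
      exact Subtype.ext (Subtype.ext h1)
  by_cases hUZ : ∀ u : Y, u ∈ U → ∀ m ∈ Z, (u : G) * m = m * u
  · left
    refine good_of_L (M := Z) π hπ ψ₀ ?_ hZc hZq hZt ?_
    · intro y hy
      rw [MonoidHom.mem_ker] at hy ⊢
      have hyU := (hπ1 y).mp hy
      ext m
      show (y : G) * m * (y : G)⁻¹ = m
      rw [hUZ y hyU m m.2]
      group
    · intro y hy r k hr hrs hord m hm
      have hm' : (y : G) * m * (y : G)⁻¹ = m := congrArg Subtype.val hm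
      have hc : (y : G) * m = m * y := by
        calc (y : G) * m = ((y : G) * m * (y : G)⁻¹) * y := by group
          _ = m * y := by rw [hm']
      obtain ⟨j, hj⟩ := hZq m
      have h1 := comm_eq_one' N h (y := (y : G)) (m := (m : G)) hr hq.out hrs hy hord
        (hZN m.2) (congrArg Subtype.val hj) hc
      exact Subtype.ext h1
  · right
    let C : Subgroup Y := (Subgroup.centralizer (Z : Set G)).subgroupOf Y
    have hex : ∃ (s : ℕ) (_ : Fact s.Prime), ¬ part U s ≤ C := by
      by_contra hall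
      push_neg at hall
      apply hUZ
      intro u hu m hm
      have h1 := le_of_parts U C (fun p hp => hall p hp) hu
      rw [Subgroup.mem_subgroupOf, Subgroup.mem_centralizer_iff] at h1
      exact (h1 m hm).symm
    obtain ⟨s, hsf, hnotle⟩ := hex
    have hsp : s.Prime := hsf.out
    have hPne : part U s ≠ ⊥ := by
      intro h0
      apply hnotle
      rw [h0]
      exact bot_le
    have hsU : s ∣ Nat.card U := by
      obtain ⟨k, hk⟩ := IsPGroup.iff_card.mp (part_isP U s)
      have hd : Nat.card (part U s) ∣ Nat.card U := Subgroup.card_dvd_of_le (part_le U s)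
      rw [hk] at hd
      rcases k with _ | k
      · exfalso
        apply hPne
        rw [pow_zero] at hk
        exact Subgroup.card_eq_one.mp hk
      · exact dvd_trans (dvd_pow_self s (Nat.succ_ne_zero k)) hd
    have hsq : s ≠ q := by
      intro hsq
      apply hnotle
      intro x hx
      rw [Subgroup.mem_subgroupOf, Subgroup.mem_centralizer_iff]
      intro m hm
      obtain ⟨j, hj⟩ := (part_isP U s) ⟨x, hx⟩
      have hj' : x ^ s ^ j = 1 := congrArg Subtype.val hj
      have hj'' : (x : G) ^ q ^ j = 1 := by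
        rw [← hsq]
        exact congrArg Subtype.val hj'
      have hxN : (x : G) ∈ N := Subgroup.mem_subgroupOf.mp (part_le U s hx)
      have hxQ := mem_of_normalizer N Q hxN hj'' (hYle x.2)
      exact ((mem_centerOf_iff Q' m).mp hm).2 _ hxQ
    have hgs := goodPart s hsU
    -- a third prime
    have hr3 : ∃ r : ℕ, r.Prime ∧ r ∣ Nat.card (G ⧸ N) ∧ r ≠ q ∧ r ≠ s := by
      by_contra hno
      push_neg at hno
      apply hns
      have hcard : Nat.card (G ⧸ N) ≠ 0 := Nat.card_pos.ne'
      obtain ⟨a, b, hab⟩ := two_primes_factor hcard hq.out hsp (fun r hr hrd => by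
        by_cases hrq : r = q
        · exact Or.inl hrq
        · exact Or.inr (hno r hr hrd hrq))
      exact Cfsg.Agent.Lib.BurnsidePQ.isSolvable_of_card_eq q s hq.out hsp _ (G ⧸ N) rfl ⟨a, b, hab⟩
    obtain ⟨r, hr, hrd, hrq, hrs⟩ := hr3
    haveI hrf : Fact r.Prime := ⟨hr⟩
    by_cases hrU : r ∣ Nat.card U
    · exact ⟨s, r, hsp, hr, Ne.symm hrs, hgs, goodPart r hrU⟩
    · exfalso
      have hrY : r ∣ Nat.card Y := dvd_trans hrd (Subgroup.card_dvd_of_surjective π hπ)
      obtain ⟨c, hc⟩ := exists_prime_orderOf_dvd_card' r hrY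
      apply hnotle
      have hfrob := frob_trivial (L := Y) (V := Z) hZc ψ₀ (part U s) (Subgroup.zpowers c)
        (fun c' _ x hx => (part_normal U s).conj_mem x hx c')
        (fun c' hc' hne x hx hcx => by
          have hdiv : orderOf c' ∣ r := hc ▸ orderOf_dvd_of_mem_zpowers hc'
          have hordc : orderOf c' = r := by
            rcases (Nat.dvd_prime hr).mp hdiv with h1 | h1
            · exact absurd (orderOf_eq_one_iff.mp h1) hne
            · exact h1
          have hcN : (c' : G) ∉ N := by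
            intro hmem
            have hmemU : c' ∈ U := Subgroup.mem_subgroupOf.mpr hmem
            apply hrU
            rw [← hordc]
            exact Subgroup.orderOf_dvd_natCard U hmemU
          obtain ⟨j, hj⟩ := (part_isP U s) ⟨x, hx⟩
          have hj' : x ^ s ^ j = 1 := congrArg Subtype.val hj
          have h1 := comm_eq_one N h (y := (c' : G)) (m := (x : G)) (r := r) (k := 1) (t := s) (j := j)
            hr hsp hrs hcN (by rw [Subgroup.orderOf_coe, hordc, pow_one])
            (Subgroup.mem_subgroupOf.mp (part_le U s hx)) (congrArg Subtype.val hj')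
            (congrArg Subtype.val hcx.symm)
          exact Subtype.ext h1)
        (fun v hv => by
          have h1 := hv c (Subgroup.mem_zpowers c)
          have hm' : (c : G) * v * (c : G)⁻¹ = v := congrArg Subtype.val h1
          have hcc : (c : G) * v = v * c := by
            calc (c : G) * v = ((c : G) * v * (c : G)⁻¹) * c := by group
              _ = v * c := by rw [hm']
          have hcN : (c : G) ∉ N := by
            intro hmem
            have hmemU : c ∈ U := Subgroup.mem_subgroupOf.mpr hmem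
            apply hrU
            rw [← hc]
            exact Subgroup.orderOf_dvd_natCard U hmemU
          obtain ⟨j, hj⟩ := hZq v
          have h2 := comm_eq_one N h (y := (c : G)) (m := (v : G)) (r := r) (k := 1) (t := q) (j := j)
            hr hq.out hrq hcN (by rw [Subgroup.orderOf_coe, hc, pow_one]) (hZN v.2)
            (congrArg Subtype.val hj) hcc
          exact Subtype.ext h2)
        (fun a b hab => by
          obtain ⟨k, hk⟩ := IsPGroup.iff_card.mp (part_isP U s)
          have hcop : Nat.Coprime q (Nat.card (part U s)) := by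
            rw [hk]
            exact Nat.Coprime.pow_right k ((Nat.coprime_primes hq.out hsp).mpr (Ne.symm hsq))
          have hcomm : Commute a b⁻¹ := by
            show a * b⁻¹ = b⁻¹ * a
            exact hZc _ _
          have h1 : (a * b⁻¹) ^ Nat.card (part U s) = 1 := by
            rw [hcomm.mul_pow, inv_pow, hab, mul_inv_cancel]
          have h2 := pow_inj hq.out hZq hcop h1
          exact mul_inv_eq_one.mp h2)
      intro x hx
      rw [Subgroup.mem_subgroupOf, Subgroup.mem_centralizer_iff]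
      intro m hm
      have h1 := hfrob x hx ⟨m, hm⟩
      have hm' : (x : G) * m * (x : G)⁻¹ = m := congrArg Subtype.val h1
      calc m * (x : G) = ((x : G) * m * (x : G)⁻¹) * x := by rw [hm']
        _ = (x : G) * m := by group

/-- Main theorem. -/
theorem main (hne : N ≠ ⊥) (hnp : ¬ Group.IsSolvable N)
    (h : ∀ x : G, x ∉ N → IsPrimePow (orderOf x)) : Group.IsSolvable (G ⧸ N) := by
  by_contra hns
  have hcp : CP (G ⧸ N) := by
    intro x hx
    induction x using QuotientGroup.induction_on with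
    | H g =>
      have hg : g ∉ N := fun hmem => hx ((QuotientGroup.eq_one_iff g).mpr hmem)
      have h1 := h g hg
      have hd : orderOf (g : G ⧸ N) ∣ orderOf g := orderOf_map_dvd (QuotientGroup.mk' N) g
      refine h1.dvd hd ?_
      intro h2
      exact hx (orderOf_eq_one_iff.mp h2)
  -- two primes
  have hcard1 : Nat.card N ≠ 1 := fun h1 => hne (Subgroup.card_eq_one.mp h1)
  obtain ⟨q₁, hq₁, hd₁⟩ := Nat.exists_prime_and_dvd hcard1
  have hex2 : ∃ q₂ : ℕ, q₂.Prime ∧ q₂ ∣ Nat.card N ∧ q₂ ≠ q₁ := by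
    by_contra hno
    push_neg at hno
    haveI : Fact q₁.Prime := ⟨hq₁⟩
    apply hnp
    have h1 : Nat.card N = q₁ ^ (Nat.card N).primeFactorsList.length :=
      Nat.eq_prime_pow_of_unique_prime_dvd Nat.card_pos.ne' (fun {d} hd hdv => hno d hd hdv)
    have hp : IsPGroup q₁ N := IsPGroup.iff_card.mpr ⟨_, h1⟩
    exact Cfsg.Agent.Lib.CPGroups.isSolvable_of_isPGroup hp
  obtain ⟨q₂, hq₂, hd₂, hne2⟩ := hex2
  haveI : Fact q₁.Prime := ⟨hq₁⟩
  haveI : Fact q₂.Prime := ⟨hq₂⟩
  have hd1 := dichotomy N h hns hd₁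
  have hd2 := dichotomy N h hns hd₂
  apply hns
  rcases hd1 with g1 | ⟨s, r, hs, hr, hsr, gs, gr⟩
  · rcases hd2 with g2 | ⟨s, r, hs, hr, hsr, gs, gr⟩
    · exact isSolvable_of_two_good hq₁ hq₂ (Ne.symm hne2) hcp g1 g2
    · exact isSolvable_of_two_good hs hr hsr hcp gs gr
  · exact isSolvable_of_two_good hs hr hsr hcp gs gr

end dichotomy

end Cfsg.Agent.Lib.H59Cp
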