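import Mathlib

/-!
# Finite facts about `SL₂(3)` used for the recognition of the `3`-central centralizer in `PSp₄(3)`.
-/

set_option autoImplicit false

namespace Cfsg.Agent.Lib.H73C1

/-- `SL₂(3)`. -/
abbrev SL3 := Matrix.SpecialLinearGroup (Fin 2) (ZMod 3)

/-- The central involution. -/
def mo : SL3 := ⟨!![2,0;0,2], by decide⟩
/-- Two generators of order three. -/
def ga : SL3 := ⟨!![1,1;0,1], by decide⟩
def gb : SL3 := ⟨!![1,0;1,1], by decide⟩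

theorem f_card : Nat.card SL3 = 24 := by
  rw [Nat.card_eq_fintype_card]; decide +kernel
theorem f_mo : ∀ g : SL3, g * mo = mo * g := by decide +kernel
theorem f_mo2 : mo ^ 2 = 1 := by decide +kernel
theorem f_mo1 : mo ≠ 1 := by decide +kernel
theorem f_8 : ∀ g : SL3, g ^ 8 = 1 → g ^ 4 = 1 := by decide +kernel
theorem f_ga : ga ^ 3 = 1 := by decide +kernel
theorem f_gb : gb ^ 3 = 1 := by decide +kernel
theorem f_gen0 : ∀ g : SL3, ∃ i j k l : Fin 3,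
    g = ga ^ i.val * gb ^ j.val * ga ^ k.val * gb ^ l.val := by decide +kernel
theorem f_coset : ∀ g y : SL3, y ≠ 1 → y ^ 3 = 1 → ∃ k : Fin 3, (g * y ^ k.val) ^ 4 = 1 := by
  decide +kernel
theorem f_Q : (Finset.univ.filter (fun g : SL3 => g ^ 4 = 1)).card = 8 := by decide +kernel
theorem f_norm : ∀ g : SL3, g ≠ 1 → ∃ w : SL3, ∃ n : Fin 7,
    g ^ n.val = mo ∨ (g * w * g⁻¹ * w⁻¹) ^ n.val = mo := by decide +kernel

theorem f_gen (g : SL3) : ∃ a b c d : SL3, a ^ 3 = 1 ∧ b ^ 3 = 1 ∧ c ^ 3 = 1 ∧ d ^ 3 = 1 ∧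
    g = a * b * c * d := by
  obtain ⟨i, j, k, l, h⟩ := f_gen0 g
  refine ⟨ga ^ i.val, gb ^ j.val, ga ^ k.val, gb ^ l.val, ?_, ?_, ?_, ?_, h⟩
  · rw [← pow_mul, mul_comm, pow_mul, f_ga, one_pow]
  · rw [← pow_mul, mul_comm, pow_mul, f_gb, one_pow]
  · rw [← pow_mul, mul_comm, pow_mul, f_ga, one_pow]
  · rw [← pow_mul, mul_comm, pow_mul, f_gb, one_pow]

end Cfsg.Agent.Lib.H73C1
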