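import Mathlib
import Cfsg.Agent.Lib.H73C1

/-!
# Structure of a group `X` with `O₃(X) = 3^{1+2}_+`, `X/O₃(X) ≅ SL₂(3)`, `O₂(X) = 1` and an `E₂₇`:
a complement `H ≅ SL₂(3)` to `O₃(X)` in the centralizer of an involution acting as `-1` on
`O₃(X)/Z(O₃(X))`.
-/

set_option autoImplicit false
set_option linter.all false

namespace Cfsg.Agent.Lib.H73C2

open Cfsg.Agent.Lib.H73C1

theorem card3_cases {G : Type*} [Group G] (B : Subgroup G) (hB : Nat.card B = 3) {w w₁ : G}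
    (hw : w ∈ B) (hw1 : w ≠ 1) (hw₁ : w₁ ∈ B) : w₁ = 1 ∨ w₁ = w ∨ w₁ = w⁻¹ := by
  haveI : Fact (Nat.Prime 3) := ⟨Nat.prime_three⟩
  haveI : Finite B := Nat.finite_of_card_ne_zero (by omega)
  have hw' : (⟨w, hw⟩ : B) ≠ 1 := fun h => hw1 (congrArg Subtype.val h)
  have hm := mem_zpowers_of_prime_card hB hw' (g' := ⟨w₁, hw₁⟩)
  obtain ⟨k, hk⟩ := hm
  have hk' : w ^ k = w₁ := congrArg Subtype.val hk
  have h3 : w ^ 3 = 1 := by
    have := pow_card_eq_one' (x := (⟨w, hw⟩ : B))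
    rw [hB] at this
    exact congrArg Subtype.val this
  have hz : w ^ (3 : ℤ) = 1 := by exact_mod_cast h3
  have hmod : w ^ k = w ^ (k % 3) := by
    conv_lhs => rw [← Int.emod_add_mul_ediv k 3, zpow_add, zpow_mul, hz, one_zpow, mul_one]
  have hlt : k % 3 = 0 ∨ k % 3 = 1 ∨ k % 3 = 2 := by omega
  rw [← hk', hmod]
  rcases hlt with h | h | h <;> rw [h]
  · left; simp
  · right; left; simp
  · right; right
    have : w ^ (2 : ℤ) * w = 1 := by
      rw [← zpow_add_one]; exact hz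
    exact eq_inv_of_mul_eq_one_left this

/-- An element `x` whose cube centralizes a normal subgroup of order three centralizes it. -/
theorem act_triv {G : Type*} [Group G] (B : Subgroup G) [B.Normal] (hB : Nat.card B = 3) (x : G)
    (hx : ∀ b ∈ B, x ^ 3 * b = b * x ^ 3) : ∀ b ∈ B, x * b = b * x := by
  intro b hb
  by_cases hb1 : b = 1
  · simp [hb1]
  have hc : x * b * x⁻¹ ∈ B := ‹B.Normal›.conj_mem b hb x
  have hb3 : b ^ 3 = 1 := by
    have := pow_card_eq_one' (x := (⟨b, hb⟩ : B))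
    rw [hB] at this
    exact congrArg Subtype.val this
  rcases card3_cases B hB hb hb1 hc with h | h | h
  · exfalso
    apply hb1
    have : x * b = x := by
      calc x * b = x * b * x⁻¹ * x := by group
        _ = x := by rw [h, one_mul]
    simpa using this
  · calc x * b = x * b * x⁻¹ * x := by group
      _ = b * x := by rw [h]
  · exfalso
    have h1 : x * b⁻¹ * x⁻¹ = b := by
      have : x * b⁻¹ * x⁻¹ = (x * b * x⁻¹)⁻¹ := by group
      rw [this, h, inv_inv]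
    have h2 : x ^ 3 * b * (x ^ 3)⁻¹ = b⁻¹ := by
      have : x ^ 3 * b * (x ^ 3)⁻¹ = x * (x * (x * b * x⁻¹) * x⁻¹) * x⁻¹ := by
        simp only [pow_succ, pow_zero, one_mul]; group
      rw [this, h, h1, h]
    have h3 : x ^ 3 * b * (x ^ 3)⁻¹ = b := by
      rw [hx b hb]; group
    rw [h3] at h2
    apply hb1
    have h4 : b ^ 2 = 1 := by
      rw [pow_two]
      nth_rewrite 1 [h2]
      group
    calc b = b ^ 3 * (b ^ 2)⁻¹ := by group
      _ = 1 := by rw [hb3, h4]; simp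

variable {X : Type*} [Group X] [Finite X]

/-- The base hypotheses. -/
structure Base (R Z : Subgroup X) (π : X →* SL3) : Prop where
  ker : ∀ x, π x = 1 ↔ x ∈ R
  surj : Function.Surjective π
  card : Nat.card R = 27
  exp : ∀ r ∈ R, r ^ 3 = 1
  memZ : ∀ r, r ∈ Z ↔ r ∈ R ∧ ∀ s ∈ R, s * r = r * s
  cardZ : Nat.card Z = 3
  comm : ∀ r ∈ R, ∀ s ∈ R, r * s * r⁻¹ * s⁻¹ ∈ Z
  nonab : ∃ r ∈ R, ∃ s ∈ R, r * s ≠ s * r
  noinv : ∀ t : X, t ^ 2 = 1 → (∀ g, g * t = t * g) → t = 1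

namespace Base

variable {R Z : Subgroup X} {π : X →* SL3}

theorem normal (B : Base R Z π) : R.Normal := by
  have : R = π.ker := by
    ext x
    rw [MonoidHom.mem_ker, B.ker]
  rw [this]
  infer_instance

theorem Z_le (B : Base R Z π) : Z ≤ R := fun r hr => ((B.memZ r).1 hr).1

theorem Z_normal (B : Base R Z π) : Z.Normal := by
  haveI := B.normal
  constructor
  intro r hr g
  rw [B.memZ] at hr ⊢
  refine ⟨‹R.Normal›.conj_mem r hr.1 g, fun s hs => ?_⟩
  have h1 := hr.2 (g⁻¹ * s * g) (by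
    have := ‹R.Normal›.conj_mem s hs g⁻¹
    simpa using this)
  calc s * (g * r * g⁻¹) = g * ((g⁻¹ * s * g) * r) * g⁻¹ := by group
    _ = g * (r * (g⁻¹ * s * g)) * g⁻¹ := by rw [h1]
    _ = g * r * g⁻¹ * s := by group

theorem one_of_sq (B : Base R Z π) {r : X} (hr : r ∈ R) (h : r ^ 2 = 1) : r = 1 := by
  calc r = r ^ 3 * (r ^ 2)⁻¹ := by group
    _ = 1 := by rw [B.exp r hr, h]; simp

theorem gen3 (B : Base R Z π) (P : Subgroup X) (hP : ∀ x, π x ^ 3 = 1 → x ∈ P) (x : X) : x ∈ P := by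
  obtain ⟨a, b, c, d, ha, hb, hc, hd, h⟩ := f_gen (π x)
  obtain ⟨a', rfl⟩ := B.surj a
  obtain ⟨b', rfl⟩ := B.surj b
  obtain ⟨c', rfl⟩ := B.surj c
  obtain ⟨d', rfl⟩ := B.surj d
  have h1 : π ((a' * b' * c' * d')⁻¹ * x) = 1 := by
    rw [map_mul, map_inv, h, map_mul, map_mul, map_mul]
    group
  have h2 : (a' * b' * c' * d')⁻¹ * x ∈ P := hP _ (by rw [h1]; simp)
  have h3 : a' * b' * c' * d' ∈ P :=
    mul_mem (mul_mem (mul_mem (hP _ ha) (hP _ hb)) (hP _ hc)) (hP _ hd)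
  have := mul_mem h3 h2
  rwa [mul_inv_cancel_left] at this

theorem pow_mem_of (B : Base R Z π) {x : X} (h : π x ^ 3 = 1) : x ^ 3 ∈ R := by
  rw [← B.ker, map_pow, h]

theorem central (B : Base R Z π) (x : X) {w : X} (hw : w ∈ Z) : x * w = w * x := by
  haveI := B.Z_normal
  have := B.gen3 (Subgroup.centralizer ({w} : Set X)) (fun y hy => by
    rw [Subgroup.mem_centralizer_iff]
    intro h' hh'
    rw [Set.mem_singleton_iff] at hh'
    subst hh'
    have h1 := act_triv Z B.cardZ y (fun b hb => ((B.memZ b).1 hb).2 _ (B.pow_mem_of hy)) h' hw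
    exact h1.symm) x
  rw [Subgroup.mem_centralizer_iff] at this
  exact (this w (by simp)).symm

theorem exists_tau (B : Base R Z π) : ∃ τ : X, τ ^ 2 = 1 ∧ π τ = mo := by
  obtain ⟨t, ht⟩ := B.surj mo
  have h2 : t ^ 2 ∈ R := by
    rw [← B.ker, map_pow, ht, f_mo2]
  refine ⟨t ^ 27, ?_, ?_⟩
  · have := B.exp _ h2
    calc (t ^ 27) ^ 2 = ((t ^ 2) ^ 3) ^ 9 := by
          simp only [← pow_mul]
      _ = 1 := by rw [this, one_pow]
  · rw [map_pow, ht]
    have : mo ^ 27 = (mo ^ 2) ^ 13 * mo := by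
      simp only [← pow_mul, ← pow_succ]
    rw [this, f_mo2]
    simp

/-- `LargeQuot.card_map_mul`. -/
theorem card_map_mul' {X Y : Type*} [Group X] [Group Y] [Finite X] (f : X →* Y) (T : Subgroup X) :
    Nat.card (T.map f) * Nat.card (f.ker.subgroupOf T) = Nat.card T := by
  have h1 := Subgroup.index_ker (f.domRestrict T)
  rw [MonoidHom.domRestrict_range, MonoidHom.ker_domRestrict] at h1
  rw [← h1]
  exact Subgroup.index_mul_card _

section tau

variable (B : Base R Z π) {τ : X} (h2 : τ ^ 2 = 1) (hπ : π τ = mo)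

include B hπ in
theorem comm_tau (g : X) : g * τ * g⁻¹ * τ⁻¹ ∈ R := by
  rw [← B.ker, map_mul, map_mul, map_mul, map_inv, map_inv, hπ, f_mo]
  group

include h2 in
theorem tau_inv : τ⁻¹ = τ := by
  rw [inv_eq_iff_mul_eq_one, ← pow_two, h2]

include B h2 in
theorem fix_mod {w c : X} (hc : c ∈ Z) (h : τ * w * τ⁻¹ = w * c) : c = 1 := by
  have hτc : τ * c * τ⁻¹ = c := by
    rw [B.central τ hc]; group
  have h1 : w = w * c * c := by
    calc w = τ ^ 2 * w * (τ ^ 2)⁻¹ := by rw [h2]; simp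
      _ = τ * (τ * w * τ⁻¹) * τ⁻¹ := by simp only [pow_two]; group
      _ = τ * (w * c) * τ⁻¹ := by rw [h]
      _ = (τ * w * τ⁻¹) * (τ * c * τ⁻¹) := by group
      _ = w * c * c := by rw [h, hτc]
  have h3 : c ^ 2 = 1 := by
    rw [pow_two]
    have : w * (c * c) = w * 1 := by rw [mul_one, ← mul_assoc]; exact h1.symm
    exact mul_left_cancel this
  exact B.one_of_sq (B.Z_le hc) h3

/-- `D = C_R(τ)`. -/
def D (R : Subgroup X) (τ : X) : Subgroup X := R ⊓ Subgroup.centralizer ({τ} : Set X)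

theorem mem_D {r : X} : r ∈ D R τ ↔ r ∈ R ∧ τ * r = r * τ := by
  unfold D
  rw [Subgroup.mem_inf, Subgroup.mem_centralizer_singleton_iff]
  constructor
  · rintro ⟨h1, h2⟩; exact ⟨h1, h2.symm⟩
  · rintro ⟨h1, h2⟩; exact ⟨h1, h2.symm⟩

include B h2 hπ in
theorem D_normal : (D R τ).Normal := by
  haveI := B.normal
  constructor
  intro r hr g
  rw [mem_D] at hr ⊢
  have hwR : g * r * g⁻¹ ∈ R := ‹R.Normal›.conj_mem r hr.1 g
  refine ⟨hwR, ?_⟩
  obtain ⟨ρ, hρ⟩ : ∃ ρ, ρ = g⁻¹ * τ * g * τ⁻¹ := ⟨_, rfl⟩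
  have hρR : ρ ∈ R := by
    have := comm_tau B hπ g⁻¹
    simpa [hρ] using this
  have hc : ρ * r * ρ⁻¹ * r⁻¹ ∈ Z := B.comm _ hρR _ hr.1
  obtain ⟨c, hcdef⟩ : ∃ c, c = ρ * r * ρ⁻¹ * r⁻¹ := ⟨_, rfl⟩
  rw [← hcdef] at hc
  have e1 : g⁻¹ * τ * g = ρ * τ := by rw [hρ]; group
  have e2 : τ * (g * r * g⁻¹) * τ⁻¹ = (g * r * g⁻¹) * c := by
    have e3 : τ * r * τ⁻¹ = r := by rw [hr.2]; group
    have e4 : τ * (g * r * g⁻¹) * τ⁻¹
        = g * ((g⁻¹ * τ * g) * r * (g⁻¹ * τ * g)⁻¹) * g⁻¹ := by group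
    have e5 : ρ * τ * r * (ρ * τ)⁻¹ = ρ * (τ * r * τ⁻¹) * ρ⁻¹ := by group
    rw [e4, e1, e5, e3]
    have e6 : ρ * r * ρ⁻¹ = c * r := by rw [hcdef]; group
    rw [e6, ← B.central r hc]
    have e7 : g * (r * c) * g⁻¹ = (g * r * g⁻¹) * (g * c * g⁻¹) := by group
    rw [e7, B.central g hc]
    group
  have e3 := fix_mod B h2 hc e2
  rw [e3, mul_one] at e2
  calc τ * (g * r * g⁻¹) = τ * (g * r * g⁻¹) * τ⁻¹ * τ := by group
    _ = g * r * g⁻¹ * τ := by rw [e2]

theorem Z_le_D (B : Base R Z π) : Z ≤ D R τ := by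
  intro w hw
  rw [mem_D]
  exact ⟨B.Z_le hw, B.central τ hw⟩

theorem D_le : D R τ ≤ R := inf_le_left

include B h2 hπ in
/-- `τ` does not centralize `R`. -/
theorem D_ne_R : ¬ (∀ r ∈ R, τ * r = r * τ) := by
  intro hall
  haveI := B.normal
  have hcent : ∀ g, g * τ = τ * g := by
    intro g
    obtain ⟨ρ, hρ⟩ : ∃ ρ, ρ = g⁻¹ * τ * g * τ⁻¹ := ⟨_, rfl⟩
    have hρR : ρ ∈ R := by
      have := comm_tau B hπ g⁻¹
      simpa [hρ] using this
    have e1 : g⁻¹ * τ * g = ρ * τ := by rw [hρ]; group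
    have hρZ : ρ ∈ Z := by
      rw [B.memZ]
      refine ⟨hρR, fun s hs => ?_⟩
      have h1 : τ * (g * s * g⁻¹) = (g * s * g⁻¹) * τ := hall _ (‹R.Normal›.conj_mem s hs g)
      have h2' : (g⁻¹ * τ * g) * s = s * (g⁻¹ * τ * g) := by
        calc (g⁻¹ * τ * g) * s = g⁻¹ * (τ * (g * s * g⁻¹)) * g := by group
          _ = g⁻¹ * ((g * s * g⁻¹) * τ) * g := by rw [h1]
          _ = s * (g⁻¹ * τ * g) := by group
      rw [e1] at h2'
      have h3 := hall s hs
      have h5 : ρ * s * τ = s * ρ * τ := by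
        calc ρ * s * τ = ρ * (s * τ) := by rw [mul_assoc]
          _ = ρ * (τ * s) := by rw [h3]
          _ = ρ * τ * s := by rw [mul_assoc]
          _ = s * (ρ * τ) := h2'
          _ = s * ρ * τ := by rw [mul_assoc]
      exact (mul_right_cancel h5).symm
    have hρ2 : ρ ^ 2 = 1 := by
      have h3 : (g⁻¹ * τ * g) ^ 2 = 1 := by
        have : (g⁻¹ * τ * g) ^ 2 = g⁻¹ * τ ^ 2 * g := by simp only [pow_two]; group
        rw [this, h2]; group
      rw [e1] at h3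
      have h4 : (ρ * τ) ^ 2 = ρ ^ 2 * τ ^ 2 := by
        have : Commute ρ τ := (B.central τ hρZ).symm
        exact this.mul_pow 2
      rw [h4, h2, mul_one] at h3
      exact h3
    have hρ1 := B.one_of_sq hρR hρ2
    rw [hρ1, one_mul] at e1
    calc g * τ = g * (g⁻¹ * τ * g) := by rw [e1]
      _ = τ * g := by group
  have h1 := B.noinv τ h2 hcent
  rw [h1, map_one] at hπ
  exact f_mo1 hπ.symm

include B h2 hπ in
/-- `C_R(τ) = Z(R)`. -/
theorem D_eq (r : X) (hr : r ∈ R) (h : τ * r = r * τ) : r ∈ Z := by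
  classical
  by_contra hrZ
  haveI := B.normal
  haveI hDn := D_normal B h2 hπ
  have hZD : Z ≤ D R τ := Z_le_D B
  have hdvd : Nat.card (D R τ) ∣ 27 := by
    rw [← B.card]; exact Subgroup.card_dvd_of_le D_le
  have h3dvd : 3 ∣ Nat.card (D R τ) := by
    rw [← B.cardZ]; exact Subgroup.card_dvd_of_le hZD
  have hne3 : Nat.card (D R τ) ≠ 3 := by
    intro h3
    have : Z = D R τ := Subgroup.eq_of_le_of_card_ge hZD (by rw [h3, B.cardZ])
    apply hrZ
    rw [this, mem_D]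
    exact ⟨hr, h⟩
  have hall : ∀ r ∈ R, τ * r = r * τ := by
    have hcase : Nat.card (D R τ) = 9 ∨ Nat.card (D R τ) = 27 := by
      have h27 : (27 : ℕ) = 3 ^ 3 := by norm_num
      rw [h27] at hdvd
      obtain ⟨k, hk, hk2⟩ := (Nat.dvd_prime_pow Nat.prime_three).1 hdvd
      interval_cases k
      · rw [pow_zero] at hk2; rw [hk2] at h3dvd; omega
      · rw [pow_one] at hk2; exact absurd hk2 hne3
      · left; rw [hk2]; norm_num
      · right; rw [hk2]; norm_num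
    rcases hcase with h9 | h27
    · -- index three
      set f := QuotientGroup.mk' (D R τ) with hf
      have hcardR : Nat.card (R.map f) = 3 := by
        have h1 := card_map_mul' f R
        have h2 : Nat.card (f.ker.subgroupOf R) = 9 := by
          rw [hf, QuotientGroup.ker_mk']
          rw [← h9]
          exact Nat.card_congr (Subgroup.subgroupOfEquivOfLe D_le).toEquiv
        rw [h2, B.card] at h1
        omega
      haveI hnorm : (R.map f).Normal := Subgroup.Normal.map ‹R.Normal› f (QuotientGroup.mk'_surjective _)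
      have hall' : ∀ x, ∀ b ∈ R.map f, f x * b = b * f x := by
        intro x
        have := B.gen3 ((Subgroup.centralizer ((R.map f : Subgroup _) : Set (X ⧸ D R τ))).comap f) (fun y hy => by
          rw [Subgroup.mem_comap, Subgroup.mem_centralizer_iff]
          intro b hb
          have h1 := act_triv (R.map f) hcardR (f y) (fun b hb => ?_) b hb
          · exact h1.symm
          · obtain ⟨s, hs, rfl⟩ := hb
            rw [← map_pow, ← map_mul, ← map_mul, hf, QuotientGroup.mk'_apply, QuotientGroup.mk'_apply,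
              QuotientGroup.eq]
            apply hZD
            have := B.comm s⁻¹ (R.inv_mem hs) (y ^ 3)⁻¹ (R.inv_mem (B.pow_mem_of hy))
            have e : (y ^ 3 * s)⁻¹ * (s * y ^ 3) = s⁻¹ * (y ^ 3)⁻¹ * (s⁻¹)⁻¹ * ((y ^ 3)⁻¹)⁻¹ := by group
            rw [e]
            exact this) x
        rw [Subgroup.mem_comap, Subgroup.mem_centralizer_iff] at this
        intro b hb
        exact (this b hb).symm
      intro r hr
      have h1 := hall' τ (f r) ⟨r, hr, rfl⟩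
      rw [← map_mul, ← map_mul, hf, QuotientGroup.mk'_apply, QuotientGroup.mk'_apply,
              QuotientGroup.eq] at h1
      rw [mem_D] at h1
      obtain ⟨d, hd⟩ : ∃ d, d = (τ * r)⁻¹ * (r * τ) := ⟨_, rfl⟩
      rw [← hd] at h1
      obtain ⟨hd1, hd2⟩ := h1
      have e1 : τ * r * τ⁻¹ = r * d := by
        rw [hd, tau_inv h2]
        have : r = r * τ * τ := by rw [mul_assoc, ← pow_two, h2, mul_one]
        calc τ * r * τ = r * (r⁻¹ * τ * r * τ) := by group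
          _ = r * ((τ * r)⁻¹ * (r * τ)) := by
              congr 1
              rw [mul_inv_rev, tau_inv h2]
              group
      have e2 : τ * d * τ⁻¹ = d := by rw [hd2]; group
      have e3 : r = r * d * d := by
        calc r = τ ^ 2 * r * (τ ^ 2)⁻¹ := by rw [h2]; simp
          _ = τ * (τ * r * τ⁻¹) * τ⁻¹ := by simp only [pow_two]; group
          _ = τ * (r * d) * τ⁻¹ := by rw [e1]
          _ = (τ * r * τ⁻¹) * (τ * d * τ⁻¹) := by group
          _ = r * d * d := by rw [e1, e2]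
      have e4 : d ^ 2 = 1 := by
        rw [pow_two]
        have : r * (d * d) = r * 1 := by rw [mul_one, ← mul_assoc]; exact e3.symm
        exact mul_left_cancel this
      have e5 := B.one_of_sq hd1 e4
      rw [e5, mul_one] at e1
      calc τ * r = τ * r * τ⁻¹ * τ := by group
        _ = r * τ := by rw [e1]
    · have : D R τ = R := Subgroup.eq_of_le_of_card_ge D_le (by rw [h27, B.card])
      intro r hr
      rw [← this, mem_D] at hr
      exact hr.2
  exact D_ne_R B h2 hπ hall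

include B h2 hπ in
/-- `τ` inverts `R/Z`. -/
theorem inv_mod (r : X) (hr : r ∈ R) : ∃ c ∈ Z, τ * r * τ⁻¹ = r⁻¹ * c := by
  haveI := B.normal
  have hu : τ * r * τ⁻¹ ∈ R := ‹R.Normal›.conj_mem r hr τ
  obtain ⟨u, hudef⟩ : ∃ u, u = τ * r * τ⁻¹ := ⟨_, rfl⟩
  rw [← hudef] at hu
  have hτu : τ * u * τ⁻¹ = r := by
    rw [hudef, tau_inv h2]
    calc τ * (τ * r * τ) * τ = τ ^ 2 * r * τ ^ 2 := by simp only [pow_two]; group
      _ = r := by rw [h2]; simp
  -- `c' = u⁻¹ r⁻¹ u r`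
  have hc' : u⁻¹ * r⁻¹ * (u⁻¹)⁻¹ * (r⁻¹)⁻¹ ∈ Z := B.comm _ (R.inv_mem hu) _ (R.inv_mem hr)
  obtain ⟨c', hc'def⟩ : ∃ c', c' = u⁻¹ * r⁻¹ * (u⁻¹)⁻¹ * (r⁻¹)⁻¹ := ⟨_, rfl⟩
  rw [← hc'def] at hc'
  have e1 : τ * (r * u) * τ⁻¹ = (r * u) * c' := by
    have : τ * (r * u) * τ⁻¹ = (τ * r * τ⁻¹) * (τ * u * τ⁻¹) := by group
    rw [this, hτu, ← hudef, hc'def]
    group
  have e2 := fix_mod B h2 hc' e1
  rw [e2, mul_one] at e1
  have e3 : r * u ∈ Z := D_eq B h2 hπ _ (mul_mem hr hu) (by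
    calc τ * (r * u) = τ * (r * u) * τ⁻¹ * τ := by group
      _ = r * u * τ := by rw [e1])
  refine ⟨r * u, e3, ?_⟩
  rw [← hudef]
  group

include B in
theorem pow3_Z {c : X} (hc : c ∈ Z) : c * c = c⁻¹ := by
  have h := B.exp c (B.Z_le hc)
  rw [eq_inv_iff_mul_eq_one, ← pow_two, ← pow_succ]
  exact h

include B h2 hπ in
theorem adjust (r : X) (hr : r ∈ R) : ∃ c ∈ Z, τ * (r * c) * τ⁻¹ = (r * c)⁻¹ := by
  obtain ⟨c, hc, h⟩ := inv_mod B h2 hπ r hr
  refine ⟨c, hc, ?_⟩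
  have h1 : τ * (r * c) * τ⁻¹ = (τ * r * τ⁻¹) * (τ * c * τ⁻¹) := by group
  have h3 : τ * c * τ⁻¹ = c := by rw [B.central τ hc]; group
  rw [h1, h, h3, mul_assoc, pow3_Z B hc, mul_inv_rev, B.central r⁻¹ (Z.inv_mem hc)]

include B h2 hπ in
theorem exists_ab : ∃ a ∈ R, ∃ b ∈ R, τ * a * τ⁻¹ = a⁻¹ ∧ τ * b * τ⁻¹ = b⁻¹ ∧ b * a ≠ a * b := by
  obtain ⟨r, hr, s, hs, hrs⟩ := B.nonab
  obtain ⟨c, hc, h1⟩ := adjust B h2 hπ r hr
  obtain ⟨d, hd, h3⟩ := adjust B h2 hπ s hs
  refine ⟨r * c, mul_mem hr (B.Z_le hc), s * d, mul_mem hs (B.Z_le hd), h1, h3, fun h => hrs ?_⟩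
  have e : s * d * (r * c) = s * r * (c * d) := by
    rw [mul_assoc, mul_assoc, ← mul_assoc d r c, ← B.central r hd, mul_assoc r d c, B.central c hd]
  have e' : r * c * (s * d) = r * s * (c * d) := by
    rw [mul_assoc, mul_assoc, ← mul_assoc c s d, ← B.central s hc, mul_assoc s c d]
  rw [e, e'] at h
  exact (mul_right_cancel h).symm

include B h2 hπ in
/-- Frattini: `X = R · C(τ)`. -/
theorem frattini (g : X) : ∃ r ∈ R, τ * (r⁻¹ * g) = (r⁻¹ * g) * τ := by
  haveI := B.normal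
  have hρR : g * τ * g⁻¹ * τ⁻¹ ∈ R := comm_tau B hπ g
  obtain ⟨ρ, hρ⟩ : ∃ ρ, ρ = g * τ * g⁻¹ * τ⁻¹ := ⟨_, rfl⟩
  rw [← hρ] at hρR
  have e1 : g * τ * g⁻¹ = ρ * τ := by rw [hρ]; group
  have hsq : (ρ * τ) ^ 2 = 1 := by
    rw [← e1]
    have : (g * τ * g⁻¹) ^ 2 = g * τ ^ 2 * g⁻¹ := by simp only [pow_two]; group
    rw [this, h2]; group
  have hτρ : τ * ρ * τ⁻¹ = ρ⁻¹ := by
    rw [tau_inv h2]
    rw [pow_two] at hsq
    have : ρ * (τ * ρ * τ) = 1 := by rw [← hsq]; group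
    exact eq_inv_of_mul_eq_one_right this
  have hρ3 := B.exp ρ hρR
  refine ⟨ρ⁻¹, R.inv_mem hρR, ?_⟩
  rw [inv_inv]
  -- `ρ g` commutes with `τ`
  have e2 : τ * ρ = ρ⁻¹ * τ := by rw [← hτρ]; group
  have e3 : g * τ = ρ * τ * g := by rw [← e1]; group
  have e4 : ρ * ρ * ρ = 1 := by rw [← hρ3, pow_succ, pow_two]
  calc τ * (ρ * g) = τ * ρ * g := by rw [mul_assoc]
    _ = ρ⁻¹ * τ * g := by rw [e2]
    _ = ρ⁻¹ * ρ⁻¹ * (ρ * τ * g) := by group
    _ = ρ⁻¹ * ρ⁻¹ * (g * τ) := by rw [e3]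
    _ = ρ * g * τ := by
      have e5 : ρ⁻¹ * ρ⁻¹ = ρ * (ρ * ρ * ρ)⁻¹ := by group
      rw [e5, e4]
      simp [mul_assoc]

include B in
/-- A non-central element `a` of `R` has centralizer of order at most `9`. -/
theorem card_cent (a : X) (ha : a ∈ R) (haZ : a ∉ Z) :
    Nat.card (R ⊓ Subgroup.centralizer ({a} : Set X) : Subgroup X) ≤ 9 := by
  have hdvd : Nat.card (R ⊓ Subgroup.centralizer ({a} : Set X) : Subgroup X) ∣ 27 := by
    rw [← B.card]; exact Subgroup.card_dvd_of_le inf_le_left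
  have h27 : (27 : ℕ) = 3 ^ 3 := by norm_num
  rw [h27] at hdvd
  obtain ⟨k, hk, hk2⟩ := (Nat.dvd_prime_pow Nat.prime_three).1 hdvd
  interval_cases k
  · rw [hk2]; norm_num
  · rw [hk2]; norm_num
  · rw [hk2]; norm_num
  · exfalso
    have : R ⊓ Subgroup.centralizer ({a} : Set X) = R :=
      Subgroup.eq_of_le_of_card_ge inf_le_left (by rw [hk2, B.card]; norm_num)
    apply haZ
    rw [B.memZ]
    refine ⟨ha, fun s hs => ?_⟩
    rw [← this, Subgroup.mem_inf, Subgroup.mem_centralizer_singleton_iff] at hs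
    exact hs.2

include B h2 hπ in
/-- The elementary abelian subgroup gives an element of order three in `C(τ)` outside `R`. -/
theorem exists_y (E : Subgroup X) (hab : ∀ x ∈ E, ∀ y ∈ E, x * y = y * x) (h3 : ∀ a ∈ E, a ^ 3 = 1)
    (hcard : Nat.card E = 27) : ∃ y, τ * y = y * τ ∧ y ^ 3 = 1 ∧ y ∉ R := by
  haveI := B.normal
  -- `g ∈ E ∖ R`
  have hg : ∃ g ∈ E, g ∉ R := by
    by_contra hcon
    push Not at hcon
    have : E = R := Subgroup.eq_of_le_of_card_ge hcon (by rw [hcard, B.card])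
    obtain ⟨r, hr, s, hs, hrs⟩ := B.nonab
    rw [← this] at hr hs
    exact hrs (hab r hr s hs)
  obtain ⟨g, hgE, hgR⟩ := hg
  -- `a' ∈ (E ∩ R) ∖ Z`
  have ha' : ∃ a' ∈ E, a' ∈ R ∧ a' ∉ Z := by
    by_contra hcon
    push Not at hcon
    have h1 := card_map_mul' π E
    have hker : Nat.card (π.ker.subgroupOf E) ≤ 3 := by
      have : (π.ker.subgroupOf E).map E.subtype ≤ Z := by
        rintro _ ⟨⟨x, hx⟩, hx2, rfl⟩
        rw [SetLike.mem_coe, Subgroup.mem_subgroupOf, MonoidHom.mem_ker, B.ker] at hx2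
        exact hcon x hx hx2
      have h2 := Subgroup.card_le_of_le this
      rw [B.cardZ, Nat.card_congr (Subgroup.equivMapOfInjective _ _ E.subtype_injective).toEquiv.symm] at h2
      exact h2
    have hr1 : Nat.card (E.map π) ∣ 27 := by
      rw [← hcard]
      have := card_map_mul' π E
      exact Dvd.intro _ this
    have hr2 : Nat.card (E.map π) ∣ 24 := by
      rw [← f_card]; exact Subgroup.card_subgroup_dvd_card _
    have hr3 : Nat.card (E.map π) ∣ 3 := by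
      have := Nat.dvd_gcd hr1 hr2
      simpa using this
    have hr4 : Nat.card (E.map π) ≤ 3 := Nat.le_of_dvd (by norm_num) hr3
    rw [hcard] at h1
    have : Nat.card (E.map π) * Nat.card (π.ker.subgroupOf E) ≤ 3 * 3 := Nat.mul_le_mul hr4 hker
    omega
  obtain ⟨a', ha'E, ha'R, ha'Z⟩ := ha'
  obtain ⟨c, hc, hac⟩ := adjust B h2 hπ a' ha'R
  obtain ⟨a, hadef⟩ : ∃ a, a = a' * c := ⟨_, rfl⟩
  rw [← hadef] at hac
  have haR : a ∈ R := by rw [hadef]; exact mul_mem ha'R (B.Z_le hc)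
  have haZ : a ∉ Z := by
    intro h
    apply ha'Z
    have := mul_mem h (Z.inv_mem hc)
    simpa [hadef] using this
  have hga : g * a = a * g := by
    rw [hadef, ← mul_assoc, hab g hgE a' ha'E, mul_assoc, B.central g hc, mul_assoc]
  obtain ⟨r, hr, hrg⟩ := frattini B h2 hπ g
  obtain ⟨n, hn⟩ : ∃ n, n = r⁻¹ * g := ⟨_, rfl⟩
  rw [← hn] at hrg
  -- `n a n⁻¹ = a`
  have h1 : r⁻¹ * a * (r⁻¹)⁻¹ * a⁻¹ ∈ Z := B.comm _ (R.inv_mem hr) _ haR
  obtain ⟨c₁, hc₁⟩ : ∃ c₁, c₁ = r⁻¹ * a * (r⁻¹)⁻¹ * a⁻¹ := ⟨_, rfl⟩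
  rw [← hc₁] at h1
  have e1 : n * a * n⁻¹ = c₁ * a := by
    have : n * a * n⁻¹ = r⁻¹ * (g * a * g⁻¹) * r := by rw [hn]; group
    rw [this, hga, hc₁]
    group
  have e2 : τ * (n * a * n⁻¹) * τ⁻¹ = (n * a * n⁻¹)⁻¹ := by
    have h5 : τ * n * τ⁻¹ = n := by rw [hrg]; group
    have h6 : τ * (n * a * n⁻¹) * τ⁻¹ = (τ * n * τ⁻¹) * (τ * a * τ⁻¹) * (τ * n * τ⁻¹)⁻¹ := by group
    rw [h6, h5, hac]
    group
  have e3 : c₁ = 1 := by
    rw [e1] at e2
    have h7 : τ * (c₁ * a) * τ⁻¹ = c₁ * a⁻¹ := by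
      have h8 : τ * c₁ * τ⁻¹ = c₁ := by rw [B.central τ h1]; group
      have h9 : τ * (c₁ * a) * τ⁻¹ = (τ * c₁ * τ⁻¹) * (τ * a * τ⁻¹) := by group
      rw [h9, h8, hac]
    rw [h7, mul_inv_rev] at e2
    have h10 : c₁ ^ 2 = 1 := by
      rw [B.central a⁻¹ (Z.inv_mem h1)] at e2
      have h11 := mul_right_cancel e2
      rw [pow_two]
      nth_rewrite 1 [h11]
      simp
    exact B.one_of_sq (B.Z_le h1) h10
  have hra : r * a = a * r := by
    rw [e3] at hc₁
    have : r⁻¹ * a * r = a := by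
      have h12 : r⁻¹ * a * r * a⁻¹ = 1 := by
        rw [hc₁]; simp
      exact mul_inv_eq_one.mp h12
    calc r * a = r * (r⁻¹ * a * r) := by rw [this]
      _ = a * r := by group
  -- `r` commutes with `g`
  have hrgc : r * g = g * r := by
    have hW : (R ⊓ Subgroup.centralizer ({a} : Set X)) ⊓ (Subgroup.centralizer ({g} : Set X))
        = R ⊓ Subgroup.centralizer ({a} : Set X) := by
      apply Subgroup.eq_of_le_of_card_ge inf_le_left
      refine (card_cent B a haR haZ).trans ?_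
      obtain ⟨W, hWdef⟩ : ∃ W, W = (R ⊓ Subgroup.centralizer ({a} : Set X)) ⊓ (Subgroup.centralizer ({g} : Set X)) := ⟨_, rfl⟩
      rw [← hWdef]
      have hWR : W ≤ R := by rw [hWdef]; exact inf_le_left.trans inf_le_left
      have hdvd : Nat.card W ∣ 3 ^ 3 := by
        have : Nat.card W ∣ Nat.card R := Subgroup.card_dvd_of_le hWR
        rwa [B.card] at this
      have hZW : Z ≤ W := by
        intro w hw
        rw [hWdef, Subgroup.mem_inf, Subgroup.mem_inf, Subgroup.mem_centralizer_singleton_iff,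
          Subgroup.mem_centralizer_singleton_iff]
        exact ⟨⟨B.Z_le hw, (B.central a hw).symm⟩, (B.central g hw).symm⟩
      have haW : a ∈ W := by
        rw [hWdef, Subgroup.mem_inf, Subgroup.mem_inf, Subgroup.mem_centralizer_singleton_iff,
          Subgroup.mem_centralizer_singleton_iff]
        exact ⟨⟨haR, rfl⟩, hga.symm⟩
      obtain ⟨k, hk, hk2⟩ := (Nat.dvd_prime_pow Nat.prime_three).1 hdvd
      have h3W : 3 ∣ Nat.card W := by
        rw [← B.cardZ]; exact Subgroup.card_dvd_of_le hZW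
      interval_cases k
      · rw [hk2] at h3W; omega
      · exfalso
        have : Z = W := Subgroup.eq_of_le_of_card_ge hZW (by rw [hk2, B.cardZ]; norm_num)
        rw [← this] at haW
        exact haZ haW
      · rw [hk2]; norm_num
      · rw [hk2]; norm_num
    have hrmem : r ∈ R ⊓ Subgroup.centralizer ({a} : Set X) := by
      rw [Subgroup.mem_inf, Subgroup.mem_centralizer_singleton_iff]
      exact ⟨hr, hra⟩
    rw [← hW, Subgroup.mem_inf, Subgroup.mem_centralizer_singleton_iff] at hrmem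
    exact hrmem.2
  refine ⟨n, hrg, ?_, ?_⟩
  · have hcomm : Commute r⁻¹ g := (Commute.inv_left hrgc)
    rw [hn, hcomm.mul_pow, h3 g hgE, inv_pow, B.exp r hr]
    simp
  · intro hnR
    apply hgR
    have := mul_mem hr hnR
    rw [hn, mul_inv_cancel_left] at this
    exact this

include B in
theorem card_X : Nat.card X = 648 := by
  have h1 : R = π.ker := by
    ext x; rw [MonoidHom.mem_ker, B.ker]
  have h3 := Subgroup.index_ker π
  rw [MonoidHom.range_eq_top.2 B.surj, Subgroup.card_top, f_card] at h3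
  have h4 := Subgroup.card_mul_index π.ker
  rw [h3, ← h1, B.card] at h4
  omega

theorem one_of_38 {G : Type*} [Group G] {x : G} (h3 : x ^ 3 = 1) (h8 : x ^ 8 = 1) : x = 1 := by
  calc x = (x ^ 3) ^ 3 * (x ^ 8)⁻¹ := by group
    _ = 1 := by rw [h3, h8]; simp

include B h2 hπ in
/-- The complement. -/
theorem exists_complement {y : X} (hyτ : τ * y = y * τ) (hy3 : y ^ 3 = 1) (hyR : y ∉ R) :
    ∃ H : Subgroup X, (∀ h ∈ H, h * τ = τ * h) ∧ R.IsComplement' H ∧ Nat.card H = 24 ∧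
      (∀ h ∈ H, (∀ r ∈ R, h * r = r * h) → h = 1) := by
  classical
  haveI := B.normal
  haveI : Fact (Nat.Prime 2) := ⟨Nat.prime_two⟩
  have hτ1 : τ ≠ 1 := by
    rintro rfl
    rw [map_one] at hπ
    exact f_mo1 hπ.symm
  have hzp : IsPGroup 2 (Subgroup.zpowers τ) := by
    apply IsPGroup.of_card (n := 1)
    rw [Nat.card_zpowers, orderOf_eq_prime h2 hτ1, pow_one]
  obtain ⟨P, hP⟩ := hzp.exists_le_sylow
  have hτP : τ ∈ (P : Subgroup X) := hP (Subgroup.mem_zpowers τ)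
  have hcX := card_X B
  have hcP : Nat.card (P : Subgroup X) = 8 := by
    have h8 : 2 ^ 3 ∣ Nat.card X := by rw [hcX]; norm_num
    have h1 := Sylow.pow_dvd_card_of_pow_dvd_card P h8
    have h4 : Nat.card (P : Subgroup X) ∣ 648 := by
      rw [← hcX]; exact Subgroup.card_subgroup_dvd_card _
    obtain ⟨k, hk⟩ := IsPGroup.iff_card.1 P.isPGroup'
    rw [hk] at h1 h4 ⊢
    have hk3 : k ≤ 3 := by
      by_contra hlt
      have : 2 ^ 4 ∣ 2 ^ k := pow_dvd_pow 2 (by omega)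
      have := this.trans h4
      norm_num at this
    have hk4 : 3 ≤ k := (Nat.pow_dvd_pow_iff_le_right (by norm_num)).1 h1
    have : k = 3 := by omega
    subst this
    norm_num
  have hp8 : ∀ p ∈ (P : Subgroup X), p ^ 8 = 1 := by
    intro p hp
    have := pow_card_eq_one' (x := (⟨p, hp⟩ : (P : Subgroup X)))
    rw [hcP] at this
    exact congrArg Subtype.val this
  have hPR : ∀ p ∈ (P : Subgroup X), p ∈ R → p = 1 := fun p hp hpR =>
    one_of_38 (B.exp p hpR) (hp8 p hp)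
  have hPτ : ∀ p ∈ (P : Subgroup X), τ * p = p * τ := by
    intro p hp
    have h1 : p * τ * p⁻¹ * τ⁻¹ ∈ R := comm_tau B hπ p
    have h3 : p * τ * p⁻¹ * τ⁻¹ ∈ (P : Subgroup X) :=
      mul_mem (mul_mem (mul_mem hp hτP) (inv_mem hp)) (inv_mem hτP)
    have h4 := hPR _ h3 h1
    have h5 : p * τ * p⁻¹ = τ := by
      have := mul_inv_eq_one.mp h4
      exact this
    calc τ * p = p * τ * p⁻¹ * p := by rw [h5]
      _ = p * τ := by group
  -- `π` maps `P` onto the elements `g` with `g ^ 4 = 1`.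
  have hQ : ∀ g : SL3, g ^ 4 = 1 → ∃ p ∈ (P : Subgroup X), π p = g := by
    have hc : Nat.card {g : SL3 // g ^ 4 = 1} = 8 := by
      rw [Nat.card_eq_fintype_card, Fintype.card_subtype, f_Q]
    let f : ↥(P : Subgroup X) → {g : SL3 // g ^ 4 = 1} := fun p => ⟨π p, by
      apply f_8
      rw [← map_pow, hp8 p p.2, map_one]⟩
    have hf : Function.Bijective f := by
      rw [Nat.bijective_iff_injective_and_card]
      refine ⟨?_, by rw [hc, hcP]⟩
      intro p p' h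
      have h1 : π p = π p' := congrArg Subtype.val h
      have h3 : π ((p' : X)⁻¹ * (p : X)) = 1 := by rw [map_mul, map_inv, h1]; simp
      have h4 := hPR _ (mul_mem (inv_mem p'.2) p.2) ((B.ker _).1 h3)
      apply Subtype.ext
      have := inv_mul_eq_one.mp h4
      exact this.symm
    intro g hg
    obtain ⟨p, hp⟩ := hf.2 ⟨g, hg⟩
    exact ⟨p, p.2, congrArg Subtype.val hp⟩
  -- normalization
  have hNorm : ∀ n, τ * n = n * τ → ∀ p ∈ (P : Subgroup X), n * p * n⁻¹ ∈ (P : Subgroup X) := by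
    intro n hn p hp
    have hw8 : (n * p * n⁻¹) ^ 8 = 1 := by
      rw [conj_pow, hp8 p hp]; simp
    have hw4 : π (n * p * n⁻¹) ^ 4 = 1 := by
      apply f_8
      rw [← map_pow, hw8, map_one]
    obtain ⟨p', hp', hpp'⟩ := hQ _ hw4
    have hrR : p'⁻¹ * (n * p * n⁻¹) ∈ R := by
      rw [← B.ker, map_mul, map_inv, hpp']; exact inv_mul_cancel _
    have hwτ : τ * (n * p * n⁻¹) = (n * p * n⁻¹) * τ := by
      have hninv : τ * n⁻¹ = n⁻¹ * τ := by
        calc τ * n⁻¹ = n⁻¹ * (n * τ) * n⁻¹ := by group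
          _ = n⁻¹ * (τ * n) * n⁻¹ := by rw [hn]
          _ = n⁻¹ * τ := by group
      calc τ * (n * p * n⁻¹) = (τ * n) * p * n⁻¹ := by group
        _ = n * (τ * p) * n⁻¹ := by rw [hn]; group
        _ = n * (p * τ) * n⁻¹ := by rw [hPτ p hp]
        _ = n * p * (τ * n⁻¹) := by group
        _ = n * p * (n⁻¹ * τ) := by rw [hninv]
        _ = (n * p * n⁻¹) * τ := by group
    have hrτ : τ * (p'⁻¹ * (n * p * n⁻¹)) = (p'⁻¹ * (n * p * n⁻¹)) * τ := by
      have h1 : τ * p'⁻¹ = p'⁻¹ * τ := by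
        calc τ * p'⁻¹ = p'⁻¹ * (p' * τ) * p'⁻¹ := by group
          _ = p'⁻¹ * (τ * p') * p'⁻¹ := by rw [hPτ p' hp']
          _ = p'⁻¹ * τ := by group
      rw [← mul_assoc, h1, mul_assoc, hwτ]
      group
    have hrZ := D_eq B h2 hπ _ hrR hrτ
    obtain ⟨r', hr'⟩ : ∃ r', r' = p'⁻¹ * (n * p * n⁻¹) := ⟨_, rfl⟩
    rw [← hr'] at hrZ hrR
    have e : n * p * n⁻¹ = p' * r' := by rw [hr']; group
    have h8 : r' ^ 8 = 1 := by
      have hc : Commute p' r' := B.central p' hrZ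
      rw [e, hc.mul_pow, hp8 p' hp', one_mul] at hw8
      exact hw8
    have h1 := one_of_38 (B.exp r' hrR) h8
    rw [e, h1, mul_one]
    exact hp'
  have hyk : ∀ k : ℕ, τ * y ^ k = y ^ k * τ := fun k => (Commute.pow_right hyτ k)
  -- the subgroup
  let H : Subgroup X :=
    { carrier := {x | ∃ p ∈ (P : Subgroup X), ∃ k : ℕ, x = p * y ^ k}
      mul_mem' := by
        rintro _ _ ⟨p, hp, k, rfl⟩ ⟨p', hp', k', rfl⟩
        refine ⟨p * (y ^ k * p' * (y ^ k)⁻¹), mul_mem hp (hNorm _ (hyk k) p' hp'), k + k', ?_⟩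
        rw [pow_add]
        group
      one_mem' := ⟨1, one_mem _, 0, by simp⟩
      inv_mem' := by
        rintro _ ⟨p, hp, k, rfl⟩
        refine ⟨y ^ (2 * k) * p⁻¹ * (y ^ (2 * k))⁻¹, hNorm _ (hyk _) _ (inv_mem hp), 2 * k, ?_⟩
        have h3k : y ^ (3 * k) = 1 := by rw [pow_mul, hy3, one_pow]
        have hk : (y ^ k)⁻¹ = y ^ (2 * k) := by
          rw [inv_eq_iff_mul_eq_one, ← pow_add, ← h3k]
          congr 1
          ring
        rw [mul_inv_rev, hk]
        group }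
  have hHmem : ∀ x, x ∈ H ↔ ∃ p ∈ (P : Subgroup X), ∃ k : ℕ, x = p * y ^ k := fun x => Iff.rfl
  have hτH : τ ∈ H := (hHmem _).2 ⟨τ, hτP, 0, by simp⟩
  have hHτ : ∀ h ∈ H, h * τ = τ * h := by
    intro h hh
    obtain ⟨p, hp, k, rfl⟩ := (hHmem _).1 hh
    rw [mul_assoc, ← hyk k, ← mul_assoc, ← hPτ p hp, mul_assoc]
  have hyb : π y ≠ 1 := fun h => hyR ((B.ker y).1 h)
  have hyb3 : π y ^ 3 = 1 := by rw [← map_pow, hy3, map_one]
  have hdisj : ∀ x ∈ H, x ∈ R → x = 1 := by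
    intro x hx hxR
    obtain ⟨p, hp, k, rfl⟩ := (hHmem _).1 hx
    have h1 : π p * π y ^ k = 1 := by
      rw [← map_pow, ← map_mul]
      exact (B.ker _).2 hxR
    have hp4 : π p ^ 4 = 1 := by
      apply f_8
      rw [← map_pow, hp8 p hp, map_one]
    have h3 : π y ^ k = 1 := by
      have e1 : π y ^ k = (π p)⁻¹ := eq_inv_of_mul_eq_one_right h1
      have e2 : (π y ^ k) ^ 4 = 1 := by rw [e1, inv_pow, hp4, inv_one]
      have e3 : (π y ^ k) ^ 3 = 1 := by rw [← pow_mul, mul_comm, pow_mul, hyb3, one_pow]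
      calc π y ^ k = (π y ^ k) ^ 4 * ((π y ^ k) ^ 3)⁻¹ := by group
        _ = 1 := by rw [e2, e3]; simp
    have hord : orderOf (π y) = 3 := orderOf_eq_prime hyb3 hyb
    have hdvd : 3 ∣ k := by rw [← hord]; exact orderOf_dvd_of_pow_eq_one h3
    obtain ⟨m, rfl⟩ := hdvd
    rw [pow_mul, hy3, one_pow, mul_one] at hxR ⊢
    exact hPR p hp hxR
  have hsurj : ∀ x : X, ∃ h ∈ H, π h = π x := by
    intro x
    obtain ⟨k, hk⟩ := f_coset (π x) (π y) hyb hyb3
    obtain ⟨p, hp, hpq⟩ := hQ _ hk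
    refine ⟨p * y ^ (2 * k.val), (hHmem _).2 ⟨p, hp, _, rfl⟩, ?_⟩
    rw [map_mul, hpq, map_pow, mul_assoc, ← pow_add]
    have : k.val + 2 * k.val = 3 * k.val := by ring
    rw [this, pow_mul, hyb3, one_pow, mul_one]
  have hcompl : R.IsComplement' H := by
    apply Subgroup.isComplement'_of_disjoint_and_mul_eq_univ
    · rw [Subgroup.disjoint_def]
      intro x hxR hxH
      exact hdisj x hxH hxR
    · rw [Set.eq_univ_iff_forall]
      intro x
      obtain ⟨h, hh, hπh⟩ := hsurj x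
      refine Set.mem_mul.2 ⟨x * h⁻¹, ?_, h, hh, by group⟩
      rw [SetLike.mem_coe, ← B.ker, map_mul, map_inv, hπh]
      simp
  have hcH : Nat.card H = 24 := by
    have := hcompl.card_mul
    rw [B.card, hcX] at this
    omega
  refine ⟨H, hHτ, hcompl, hcH, ?_⟩
  -- faithful
  intro h hh hcen
  by_contra hne
  have hπh : π h ≠ 1 := fun h1 => hne (hdisj h hh ((B.ker h).1 h1))
  obtain ⟨w, n, hw⟩ := f_norm (π h) hπh
  have hτcent : ∀ r ∈ R, τ * r = r * τ := by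
    -- any `t ∈ H` with `π t = mo` equals `τ`
    have huniq : ∀ t ∈ H, π t = mo → t = τ := by
      intro t ht hπt
      have h1 : t * τ⁻¹ ∈ H := mul_mem ht (inv_mem hτH)
      have h3 : t * τ⁻¹ ∈ R := by
        rw [← B.ker, map_mul, map_inv, hπt, hπ]; simp
      exact mul_inv_eq_one.mp (hdisj _ h1 h3)
    rcases hw with hw | hw
    · have ht := huniq (h ^ n.val) (pow_mem hh _) (by rw [map_pow, hw])
      intro r hr
      rw [← ht]
      exact (Commute.pow_left (hcen r hr) n.val)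
    · obtain ⟨w', hw'⟩ : ∃ w' ∈ H, π w' = w := by
        obtain ⟨x, rfl⟩ := B.surj w
        exact hsurj x
      obtain ⟨hw'H, hw'π⟩ := hw'
      have ht := huniq ((h * w' * h⁻¹ * w'⁻¹) ^ n.val)
        (pow_mem (mul_mem (mul_mem (mul_mem hh hw'H) (inv_mem hh)) (inv_mem hw'H)) _)
        (by rw [map_pow, map_mul, map_mul, map_mul, map_inv, map_inv, hw'π, hw])
      intro r hr
      rw [← ht]
      refine (Commute.pow_left ?_ n.val)
      have hcr : ∀ r ∈ R, Commute (h * w' * h⁻¹ * w'⁻¹) r := by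
        intro r hr
        have h5 : Commute h r := hcen r hr
        have h6 : w' * h⁻¹ * w'⁻¹ * r = r * (w' * h⁻¹ * w'⁻¹) := by
          have h7 : Commute h (w'⁻¹ * r * w') := hcen _ (by
            have := ‹R.Normal›.conj_mem r hr w'⁻¹
            simpa using this)
          have h8 : Commute h⁻¹ (w'⁻¹ * r * w') := h7.inv_left
          calc w' * h⁻¹ * w'⁻¹ * r = w' * (h⁻¹ * (w'⁻¹ * r * w')) * w'⁻¹ := by group
            _ = w' * ((w'⁻¹ * r * w') * h⁻¹) * w'⁻¹ := by rw [h8.eq]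
            _ = r * (w' * h⁻¹ * w'⁻¹) := by group
        calc h * w' * h⁻¹ * w'⁻¹ * r = h * (w' * h⁻¹ * w'⁻¹ * r) := by group
          _ = h * (r * (w' * h⁻¹ * w'⁻¹)) := by rw [h6]
          _ = (h * r) * (w' * h⁻¹ * w'⁻¹) := by group
          _ = (r * h) * (w' * h⁻¹ * w'⁻¹) := by rw [h5.eq]
          _ = r * (h * w' * h⁻¹ * w'⁻¹) := by group
      exact hcr r hr
  exact D_ne_R B h2 hπ hτcent

end tau

/-- The structure data extracted from `Base`. -/
structure Data (R H : Subgroup X) (a b τ : X) : Prop where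
  ha : a ∈ R
  hb : b ∈ R
  hτa : τ * a * τ⁻¹ = a⁻¹
  hτb : τ * b * τ⁻¹ = b⁻¹
  hexp : ∀ r ∈ R, r ^ 3 = 1
  hcard : Nat.card R = 27
  hz1 : b * a * b⁻¹ * a⁻¹ ≠ 1
  hzc : ∀ x, x * (b * a * b⁻¹ * a⁻¹) = (b * a * b⁻¹ * a⁻¹) * x
  hHτ : ∀ h ∈ H, h * τ = τ * h
  hc : R.IsComplement' H
  hcH : Nat.card H = 24
  hf : ∀ h ∈ H, (∀ r ∈ R, h * r = r * h) → h = 1

theorem exists_data (B : Base R Z π) (E : Subgroup X) (hab : ∀ x ∈ E, ∀ y ∈ E, x * y = y * x)
    (h3 : ∀ a ∈ E, a ^ 3 = 1) (hcard : Nat.card E = 27) :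
    ∃ (H : Subgroup X) (a b τ : X), Data R H a b τ := by
  obtain ⟨τ, h2, hπ⟩ := B.exists_tau
  obtain ⟨y, hy1, hy2, hy3⟩ := exists_y B h2 hπ E hab h3 hcard
  obtain ⟨H, hH1, hH2, hH3, hH4⟩ := exists_complement B h2 hπ hy1 hy2 hy3
  obtain ⟨a, ha, b, hb, h5, h6, h7⟩ := exists_ab B h2 hπ
  have hz : b * a * b⁻¹ * a⁻¹ ∈ Z := B.comm _ hb _ ha
  refine ⟨H, a, b, τ, ha, hb, h5, h6, B.exp, B.card, ?_, fun x => B.central x hz, hH1, hH2, hH3, hH4⟩
  intro h
  apply h7
  have : b * a * b⁻¹ = a := mul_inv_eq_one.mp h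
  calc b * a = b * a * b⁻¹ * b := by group
    _ = a * b := by rw [this]

end Base

end Cfsg.Agent.Lib.H73C2
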