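import Mathlib
import Cfsg.Agent.Lib.H73C2

/-!
# The Heisenberg group `H3` over `F₃`, its automorphisms commuting with inversion, and the embedding
of `X` into any group containing `H3 ⋊ SL₂(3)`.
-/

set_option autoImplicit false
set_option linter.all false

namespace Cfsg.Agent.Lib.H73C3

open Cfsg.Agent.Lib.H73C1 Cfsg.Agent.Lib.H73C2 Cfsg.Agent.Lib.H73C2.Base

/-- The Heisenberg group with the symmetric cocycle. -/
@[ext] structure H3 where
  x : ZMod 3
  y : ZMod 3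
  s : ZMod 3

instance : Mul H3 := ⟨fun u v => ⟨u.x + v.x, u.y + v.y, u.s + v.s + u.x * v.y - u.y * v.x⟩⟩
instance : One H3 := ⟨⟨0, 0, 0⟩⟩
instance : Inv H3 := ⟨fun u => ⟨-u.x, -u.y, -u.s⟩⟩

@[simp] theorem mul_x (u v : H3) : (u * v).x = u.x + v.x := rfl
@[simp] theorem mul_y (u v : H3) : (u * v).y = u.y + v.y := rfl
@[simp] theorem mul_s (u v : H3) : (u * v).s = u.s + v.s + u.x * v.y - u.y * v.x := rfl
@[simp] theorem one_x : (1 : H3).x = 0 := rfl
@[simp] theorem one_y : (1 : H3).y = 0 := rfl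
@[simp] theorem one_s : (1 : H3).s = 0 := rfl
@[simp] theorem inv_x (u : H3) : (u⁻¹).x = -u.x := rfl
@[simp] theorem inv_y (u : H3) : (u⁻¹).y = -u.y := rfl
@[simp] theorem inv_s (u : H3) : (u⁻¹).s = -u.s := rfl

instance : Group H3 := Group.ofLeftAxioms
  (by intro a b c; ext <;> simp <;> ring)
  (by intro a; ext <;> simp)
  (by intro a; ext <;> simp <;> ring)

/-- The equivalence with triples. -/
def h3Equiv : H3 ≃ ZMod 3 × ZMod 3 × ZMod 3 where
  toFun u := (u.x, u.y, u.s)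
  invFun t := ⟨t.1, t.2.1, t.2.2⟩
  left_inv _ := rfl
  right_inv _ := rfl

instance : Finite H3 := Finite.of_equiv _ h3Equiv.symm

theorem card_H3 : Nat.card H3 = 27 := by
  rw [Nat.card_congr h3Equiv]
  simp [Nat.card_prod, Nat.card_zmod]

/-- The action of `SL₂(3)` on `H3`. -/
def actA (A : SL3) (v : H3) : H3 :=
  ⟨A.1 0 0 * v.x + A.1 0 1 * v.y, A.1 1 0 * v.x + A.1 1 1 * v.y, v.s⟩

theorem actA_mul (A B : SL3) (v : H3) : actA (A * B) v = actA A (actA B v) := by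
  ext
  · simp [actA, Matrix.SpecialLinearGroup.coe_mul, Matrix.mul_apply, Fin.sum_univ_two]; ring
  · simp [actA, Matrix.SpecialLinearGroup.coe_mul, Matrix.mul_apply, Fin.sum_univ_two]; ring
  · simp [actA]

theorem actA_one (v : H3) : actA 1 v = v := by
  ext <;> simp [actA]

theorem actA_inj {A B : SL3} (h : ∀ v, actA A v = actA B v) : A = B := by
  have h1 := h ⟨1, 0, 0⟩
  have h2 := h ⟨0, 1, 0⟩
  simp only [actA, mul_one, mul_zero, add_zero, zero_add, H3.mk.injEq, and_true] at h1 h2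
  apply Subtype.ext
  ext i j
  fin_cases i <;> fin_cases j
  · exact h1.1
  · exact h2.1
  · exact h1.2
  · exact h2.2

theorem zm3 : ∀ x : ZMod 3, x = 0 ∨ x = 1 ∨ x = 2 := by decide

theorem two_eq : ∀ s : ZMod 3, s = -s → s = 0 := by decide

/-- Automorphisms of `H3` fixing the centre and commuting with inversion on `H3/Z` come from `SL₂(3)`. -/
theorem aut_H3 (ψ : H3 →* H3) (h1 : ∀ s, ψ ⟨0, 0, s⟩ = ⟨0, 0, s⟩)
    (h2 : ∀ x y s, ψ ⟨-x, -y, s⟩ = ⟨-(ψ ⟨x, y, s⟩).x, -(ψ ⟨x, y, s⟩).y, (ψ ⟨x, y, s⟩).s⟩) :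
    ∃ A : SL3, ∀ v, ψ v = actA A v := by
  obtain ⟨p₁, q₁, s₁, he₁⟩ : ∃ p q s, ψ ⟨1, 0, 0⟩ = ⟨p, q, s⟩ := ⟨_, _, _, rfl⟩
  obtain ⟨p₂, q₂, s₂, he₂⟩ : ∃ p q s, ψ ⟨0, 1, 0⟩ = ⟨p, q, s⟩ := ⟨_, _, _, rfl⟩
  have hs₁ : s₁ = 0 := by
    have h3 := h2 1 0 0
    have h4 : (⟨-1, -0, 0⟩ : H3) = (⟨1, 0, 0⟩ : H3)⁻¹ := by ext <;> simp
    rw [h4, map_inv, he₁] at h3
    have := congrArg H3.s h3
    simp at this
    exact two_eq _ this.symm
  have hs₂ : s₂ = 0 := by
    have h3 := h2 0 1 0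
    have h4 : (⟨-0, -1, 0⟩ : H3) = (⟨0, 1, 0⟩ : H3)⁻¹ := by ext <;> simp
    rw [h4, map_inv, he₂] at h3
    have := congrArg H3.s h3
    simp at this
    exact two_eq _ this.symm
  subst hs₁ hs₂
  -- determinant
  have hdet : p₁ * q₂ - q₁ * p₂ = 1 := by
    have h3 : (⟨0, 1, 0⟩ : H3) * ⟨1, 0, 0⟩ = ⟨0, 0, 1⟩ * (⟨1, 0, 0⟩ * ⟨0, 1, 0⟩) := by
      ext <;> simp
      decide
    have h4 := congrArg ψ h3
    rw [map_mul, map_mul, map_mul, h1, he₁, he₂] at h4
    have := congrArg H3.s h4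
    simp at this
    have h5 : ∀ p₁ q₁ p₂ q₂ : ZMod 3, p₂ * q₁ - q₂ * p₁ = 1 + (p₁ * q₂ - q₁ * p₂) →
        p₁ * q₂ - q₁ * p₂ = 1 := by decide
    exact h5 _ _ _ _ (by rw [this])
  have hx : ∀ x : ZMod 3, ψ ⟨x, 0, 0⟩ = ⟨x * p₁, x * q₁, 0⟩ := by
    intro x
    rcases zm3 x with rfl | rfl | rfl
    · have : (⟨0, 0, 0⟩ : H3) = 1 := rfl
      rw [this, map_one]; ext <;> simp
    · rw [he₁]; ext <;> simp
    · have : (⟨2, 0, 0⟩ : H3) = ⟨1, 0, 0⟩ * ⟨1, 0, 0⟩ := by
        ext <;> simp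
        decide
      rw [this, map_mul, he₁]
      ext <;> simp
      · ring
      · ring
      · ring
  have hy : ∀ y : ZMod 3, ψ ⟨0, y, 0⟩ = ⟨y * p₂, y * q₂, 0⟩ := by
    intro x
    rcases zm3 x with rfl | rfl | rfl
    · have : (⟨0, 0, 0⟩ : H3) = 1 := rfl
      rw [this, map_one]; ext <;> simp
    · rw [he₂]; ext <;> simp
    · have : (⟨0, 2, 0⟩ : H3) = ⟨0, 1, 0⟩ * ⟨0, 1, 0⟩ := by
        ext <;> simp
        decide
      rw [this, map_mul, he₂]
      ext <;> simp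
      · ring
      · ring
      · ring
  refine ⟨⟨!![p₁, p₂; q₁, q₂], by rw [Matrix.det_fin_two_of]; linear_combination hdet⟩, ?_⟩
  rintro ⟨x, y, s⟩
  have h3 : (⟨x, y, s⟩ : H3) = ⟨x, 0, 0⟩ * ⟨0, y, 0⟩ * ⟨0, 0, s - x * y⟩ := by
    ext <;> simp
  rw [h3, map_mul, map_mul, hx, hy, h1]
  ext
  · simp [actA]; ring
  · simp [actA]; ring
  · simp [actA]
    have : x * p₁ * (y * q₂) - x * q₁ * (y * p₂) = x * y * (p₁ * q₂ - q₁ * p₂) := by ring
    rw [this, hdet]
    ring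

/-! ### Exponents in `ZMod 3` -/

section pw

variable {G : Type*} [Group G]

/-- `x ^ i` for `i : ZMod 3`. -/
def pw (x : G) (i : ZMod 3) : G := x ^ i.val

theorem pw_zero (x : G) : pw x 0 = 1 := by simp [pw]

theorem pw_one (x : G) : pw x 1 = x := by
  have : (1 : ZMod 3).val = 1 := rfl
  simp [pw, this]

theorem pw_add {x : G} (h : x ^ 3 = 1) (i j : ZMod 3) : pw x (i + j) = pw x i * pw x j := by
  unfold pw
  rw [ZMod.val_add, ← pow_add]
  exact (pow_eq_pow_mod _ h).symm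

theorem pw_neg {x : G} (h : x ^ 3 = 1) (i : ZMod 3) : pw x (-i) = (pw x i)⁻¹ := by
  have := pw_add h (-i) i
  rw [neg_add_cancel, pw_zero] at this
  exact eq_inv_of_mul_eq_one_left this.symm

theorem pw_conj (g x : G) (i : ZMod 3) : g * pw x i * g⁻¹ = pw (g * x * g⁻¹) i := by
  unfold pw
  rw [conj_pow]

theorem pw_inv (x : G) (i : ZMod 3) : pw x⁻¹ i = (pw x i)⁻¹ := by
  unfold pw
  rw [inv_pow]

theorem pw_mem (S : Subgroup G) {x : G} (h : x ∈ S) (i : ZMod 3) : pw x i ∈ S := pow_mem h _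

theorem pw_central {z : G} (h : ∀ g, g * z = z * g) (i : ZMod 3) (g : G) : g * pw z i = pw z i * g :=
  (Commute.pow_right (h g) _)

theorem comm_pow_pow {a b z : G} (hza : a * z = z * a) (hzb : b * z = z * b) (hba : b * a = z * (a * b))
    (n m : ℕ) : b ^ n * a ^ m = z ^ (n * m) * (a ^ m * b ^ n) := by
  have h1 : ∀ m : ℕ, b * a ^ m = z ^ m * (a ^ m * b) := by
    intro m
    induction m with
    | zero => simp
    | succ m ih =>
      have hc : Commute a (z ^ m) := Commute.pow_right hza m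
      calc b * a ^ (m + 1) = (b * a ^ m) * a := by rw [pow_succ, mul_assoc]
        _ = z ^ m * (a ^ m * b) * a := by rw [ih]
        _ = z ^ m * a ^ m * (b * a) := by simp only [mul_assoc]
        _ = z ^ m * a ^ m * (z * (a * b)) := by rw [hba]
        _ = z ^ m * (a ^ m * z) * (a * b) := by simp only [mul_assoc]
        _ = z ^ m * (z * a ^ m) * (a * b) := by rw [(Commute.pow_left hza m).eq]
        _ = z ^ (m + 1) * (a ^ (m + 1) * b) := by
          rw [pow_succ z, pow_succ a]; simp only [mul_assoc]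
  induction n with
  | zero => simp
  | succ n ih =>
    have hc : Commute b (z ^ m) := Commute.pow_right hzb m
    have hc2 : Commute (b ^ n) (z ^ m) := Commute.pow_left hc n
    calc b ^ (n + 1) * a ^ m = b ^ n * (b * a ^ m) := by rw [pow_succ, mul_assoc]
      _ = b ^ n * (z ^ m * (a ^ m * b)) := by rw [h1]
      _ = z ^ m * (b ^ n * a ^ m) * b := by
        rw [← mul_assoc, hc2.eq]; simp only [mul_assoc]
      _ = z ^ m * (z ^ (n * m) * (a ^ m * b ^ n)) * b := by rw [ih]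
      _ = z ^ ((n + 1) * m) * (a ^ m * b ^ (n + 1)) := by
        rw [add_mul, one_mul, add_comm (n * m) m, pow_add z m (n * m), pow_succ b]
        simp only [mul_assoc]

theorem pw_comm {a b z : G} (hza : a * z = z * a) (hzb : b * z = z * b) (hba : b * a = z * (a * b))
    (hz : z ^ 3 = 1) (i j : ZMod 3) : pw b j * pw a i = pw z (i * j) * (pw a i * pw b j) := by
  unfold pw
  rw [comm_pow_pow hza hzb hba, ZMod.val_mul, mul_comm j.val i.val]
  congr 1
  exact pow_eq_pow_mod _ hz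

theorem pw_eq_one {z : G} (hz : z ^ 3 = 1) (hz1 : z ≠ 1) {i : ZMod 3} (h : pw z i = 1) : i = 0 := by
  rcases zm3 i with rfl | rfl | rfl
  · rfl
  · rw [pw_one] at h; exact absurd h hz1
  · exfalso
    apply hz1
    have h2 : z ^ 2 = 1 := by
      have : (2 : ZMod 3).val = 2 := rfl
      simpa [pw, this] using h
    calc z = z ^ 3 * (z ^ 2)⁻¹ := by group
      _ = 1 := by rw [hz, h2]; simp

theorem mul_aux (A B A' B' Z1 Z2 Z3 : G) (hZ1 : ∀ g, g * Z1 = Z1 * g) (hZ3 : ∀ g, g * Z3 = Z3 * g)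
    (h : B * A' = Z3 * (A' * B)) :
    A * B * Z1 * (A' * B' * Z2) = A * A' * (B * B') * (Z1 * Z2 * Z3) := by
  have e1 : Z1 * Z2 * Z3 = Z2 * Z3 * Z1 := by
    rw [mul_assoc, ← hZ1]
  rw [e1]
  calc A * B * Z1 * (A' * B' * Z2) = A * B * (Z1 * (A' * B' * Z2)) := by simp only [mul_assoc]
    _ = A * B * ((A' * B' * Z2) * Z1) := by rw [← hZ1]
    _ = A * (B * A') * (B' * Z2 * Z1) := by simp only [mul_assoc]
    _ = A * (Z3 * (A' * B)) * (B' * Z2 * Z1) := by rw [h]
    _ = (A * Z3) * (A' * B) * (B' * Z2 * Z1) := by simp only [mul_assoc]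
    _ = (Z3 * A) * (A' * B) * (B' * Z2 * Z1) := by rw [hZ3]
    _ = Z3 * (A * A' * (B * B') * Z2 * Z1) := by simp only [mul_assoc]
    _ = A * A' * (B * B') * Z2 * Z1 * Z3 := by rw [← hZ3]
    _ = A * A' * (B * B') * (Z2 * (Z1 * Z3)) := by simp only [mul_assoc]
    _ = A * A' * (B * B') * (Z2 * (Z3 * Z1)) := by rw [hZ3 Z1]
    _ = A * A' * (B * B') * (Z2 * Z3 * Z1) := by simp only [mul_assoc]

end pw

/-! ### The map `F : H3 → X` -/

section Fmap

variable {X : Type*} [Group X] [Finite X] {R H : Subgroup X} {a b τ : X}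

/-- The central commutator. -/
def zz (a b : X) : X := b * a * b⁻¹ * a⁻¹

theorem _root_.Cfsg.Agent.Lib.H73C2.Base.Data.a3 (D : Data R H a b τ) : a ^ 3 = 1 := D.hexp a D.ha
theorem _root_.Cfsg.Agent.Lib.H73C2.Base.Data.b3 (D : Data R H a b τ) : b ^ 3 = 1 := D.hexp b D.hb
theorem _root_.Cfsg.Agent.Lib.H73C2.Base.Data.zR (D : Data R H a b τ) : zz a b ∈ R :=
  mul_mem (mul_mem (mul_mem D.hb D.ha) (inv_mem D.hb)) (inv_mem D.ha)
theorem _root_.Cfsg.Agent.Lib.H73C2.Base.Data.z3 (D : Data R H a b τ) : zz a b ^ 3 = 1 := D.hexp _ D.zR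
theorem _root_.Cfsg.Agent.Lib.H73C2.Base.Data.zc (D : Data R H a b τ) (x : X) : x * zz a b = zz a b * x := D.hzc x
theorem _root_.Cfsg.Agent.Lib.H73C2.Base.Data.z1 (D : Data R H a b τ) : zz a b ≠ 1 := D.hz1
theorem _root_.Cfsg.Agent.Lib.H73C2.Base.Data.ba (D : Data R H a b τ) : b * a = zz a b * (a * b) := by
  unfold zz; group

/-- The coordinate map. -/
def Ffun (a b : X) (v : H3) : X := pw a v.x * pw b v.y * pw (zz a b) (v.s - v.x * v.y)

theorem Ffun_mul (D : Data R H a b τ) (u v : H3) : Ffun a b (u * v) = Ffun a b u * Ffun a b v := by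
  unfold Ffun
  have hZ : ∀ i g, g * pw (zz a b) i = pw (zz a b) i * g := fun i g => pw_central D.zc i g
  rw [mul_aux _ _ _ _ _ _ (pw (zz a b) (v.x * u.y)) (hZ _) (hZ _)
    (pw_comm (D.zc a) (D.zc b) D.ba D.z3 _ _)]
  rw [← pw_add D.a3, ← pw_add D.b3, ← pw_add D.z3, ← pw_add D.z3]
  congr 2
  simp only [mul_s, mul_x, mul_y]
  have h3 : (3 : ZMod 3) = 0 := by decide
  linear_combination (-u.y * v.x) * h3

/-- `F` as a homomorphism. -/
def F (D : Data R H a b τ) : H3 →* X where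
  toFun := Ffun a b
  map_one' := by simp [Ffun, pw_zero]
  map_mul' := Ffun_mul D

theorem F_apply (D : Data R H a b τ) (v : H3) : F D v = Ffun a b v := rfl

theorem F_central (D : Data R H a b τ) (s : ZMod 3) : F D ⟨0, 0, s⟩ = pw (zz a b) s := by
  simp [F_apply, Ffun, pw_zero]

theorem F_e1 (D : Data R H a b τ) : F D ⟨1, 0, 0⟩ = a := by
  simp [F_apply, Ffun, pw_zero, pw_one]

theorem F_e2 (D : Data R H a b τ) : F D ⟨0, 1, 0⟩ = b := by
  simp [F_apply, Ffun, pw_zero, pw_one]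

theorem F_mem (D : Data R H a b τ) (v : H3) : F D v ∈ R :=
  mul_mem (mul_mem (pw_mem R D.ha _) (pw_mem R D.hb _)) (pw_mem R D.zR _)

theorem F_eq_one (D : Data R H a b τ) {v : H3} (hv : F D v = 1) : v = 1 := by
  obtain ⟨x, y, s⟩ := v
  have h1 : ((⟨x, y, s⟩ : H3) * ⟨1, 0, 0⟩ * (⟨x, y, s⟩ : H3)⁻¹ * (⟨1, 0, 0⟩ : H3)⁻¹) = ⟨0, 0, y⟩ := by
    have h3 : (3 : ZMod 3) = 0 := by decide
    ext <;> simp
    linear_combination (-y) * h3
  have h2 : ((⟨x, y, s⟩ : H3) * ⟨0, 1, 0⟩ * (⟨x, y, s⟩ : H3)⁻¹ * (⟨0, 1, 0⟩ : H3)⁻¹) = ⟨0, 0, -x⟩ := by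
    have h3 : (3 : ZMod 3) = 0 := by decide
    ext <;> simp
    linear_combination (x) * h3
  have hy : y = 0 := by
    have := congrArg (F D) h1
    rw [map_mul, map_mul, map_mul, map_inv, hv, F_central] at this
    simp at this
    exact pw_eq_one D.z3 D.z1 this.symm
  have hx : x = 0 := by
    have := congrArg (F D) h2
    rw [map_mul, map_mul, map_mul, map_inv, hv, F_central] at this
    simp at this
    have h5 := pw_eq_one D.z3 D.z1 this.symm
    simpa using h5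
  subst hx hy
  rw [F_central] at hv
  have := pw_eq_one D.z3 D.z1 hv
  subst this
  rfl

theorem F_inj (D : Data R H a b τ) : Function.Injective (F D) := by
  rw [injective_iff_map_eq_one]
  intro v hv
  exact F_eq_one D hv

/-- `F` onto `R`. -/
theorem F_surj (D : Data R H a b τ) (r : X) (hr : r ∈ R) : ∃ v, F D v = r := by
  let f : H3 → R := fun v => ⟨F D v, F_mem D v⟩
  have hf : Function.Bijective f := by
    rw [Nat.bijective_iff_injective_and_card]
    refine ⟨fun u v h => F_inj D (congrArg Subtype.val h), by rw [card_H3, D.hcard]⟩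
  obtain ⟨v, hv⟩ := hf.2 ⟨r, hr⟩
  exact ⟨v, congrArg Subtype.val hv⟩

theorem F_tau (D : Data R H a b τ) (x y s : ZMod 3) : τ * F D ⟨x, y, s⟩ * τ⁻¹ = F D ⟨-x, -y, s⟩ := by
  simp only [F_apply, Ffun]
  have e : τ * (pw a x * pw b y * pw (zz a b) (s - x * y)) * τ⁻¹
      = (τ * pw a x * τ⁻¹) * (τ * pw b y * τ⁻¹) * (τ * pw (zz a b) (s - x * y) * τ⁻¹) := by group
  have e3 : τ * pw (zz a b) (s - x * y) * τ⁻¹ = pw (zz a b) (s - x * y) := by
    rw [pw_central D.zc _ τ]; group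
  rw [e, e3, pw_conj, pw_conj, D.hτa, D.hτb, pw_inv, pw_inv, pw_neg D.a3, pw_neg D.b3]
  congr 2
  ring

/-- The conjugation action of `h ∈ H` on `H3`. -/
theorem exists_A (D : Data R H a b τ) (hn : R.Normal) (h : X) (hh : h ∈ H) :
    ∃ A : SL3, ∀ v, F D (actA A v) = h * F D v * h⁻¹ := by
  have hex : ∀ v, ∃ w, F D w = h * F D v * h⁻¹ := fun v =>
    F_surj D _ (hn.conj_mem _ (F_mem D v) h)
  choose f hf using hex
  have hfm : ∀ u v, f (u * v) = f u * f v := by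
    intro u v
    apply F_inj D
    rw [hf, map_mul, map_mul, hf, hf]
    group
  let ψ : H3 →* H3 := MonoidHom.mk' f hfm
  have hψ : ∀ v, ψ v = f v := fun v => rfl
  obtain ⟨A, hA⟩ := aut_H3 ψ (by
    intro s
    apply F_inj D
    rw [hψ, hf, F_central, pw_central D.zc s h]
    group) (by
    intro x y s
    apply F_inj D
    rw [hψ, hψ, hf]
    obtain ⟨p, q, r, hpq⟩ : ∃ p q r, f ⟨x, y, s⟩ = ⟨p, q, r⟩ := ⟨_, _, _, rfl⟩
    rw [hpq]
    simp only
    rw [← F_tau D, ← F_tau D, ← hpq, hf]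
    have hc := D.hHτ h hh
    calc h * (τ * F D ⟨x, y, s⟩ * τ⁻¹) * h⁻¹ = (h * τ) * F D ⟨x, y, s⟩ * (h * τ)⁻¹ := by group
      _ = (τ * h) * F D ⟨x, y, s⟩ * (τ * h)⁻¹ := by rw [hc]
      _ = τ * (h * F D ⟨x, y, s⟩ * h⁻¹) * τ⁻¹ := by group)
  exact ⟨A, fun v => by rw [← hA, hψ, hf]⟩

theorem exists_rho (D : Data R H a b τ) (hn : R.Normal) :
    ∃ ρ : H →* SL3, (∀ (h : H) v, F D (actA (ρ h) v) = h * F D v * (h : X)⁻¹) ∧ Function.Bijective ρ := by
  have hex : ∀ h : H, ∃ A, ∀ v, F D (actA A v) = h * F D v * (h : X)⁻¹ :=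
    fun h => exists_A D hn h h.2
  choose f hf using hex
  have hm : ∀ h h', f (h * h') = f h * f h' := by
    intro h h'
    apply actA_inj
    intro v
    apply F_inj D
    rw [hf, actA_mul, hf, hf, Subgroup.coe_mul]
    group
  refine ⟨MonoidHom.mk' f hm, hf, ?_⟩
  rw [Nat.bijective_iff_injective_and_card]
  refine ⟨?_, by rw [D.hcH, f_card]⟩
  rw [injective_iff_map_eq_one]
  intro h hh
  have h1 : f h = 1 := hh
  apply Subtype.ext
  apply D.hf h h.2
  intro r hr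
  obtain ⟨v, rfl⟩ := F_surj D r hr
  have h2 := hf h v
  rw [h1, actA_one] at h2
  calc (h : X) * F D v = (h : X) * F D v * (h : X)⁻¹ * h := by group
    _ = F D v * h := by rw [← h2]

theorem main (D : Data R H a b τ) [hn : R.Normal] {T : Type*} [Group T] (heisM : H3 →* T)
    (leviM : SL3 →* T) (hrel : ∀ A v, leviM A * heisM v = heisM (actA A v) * leviM A)
    (hinj : ∀ v A, heisM v * leviM A = 1 → v = 1 ∧ A = 1) :
    ∃ Ψ : X →* T, Function.Injective Ψ ∧ ∀ t, t ∈ Ψ.range ↔ ∃ v A, t = heisM v * leviM A := by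
  classical
  obtain ⟨ρ, hρ, hρb⟩ := exists_rho D hn
  -- `F'`
  let F0 : H3 →* R := (F D).codRestrict R (F_mem D)
  have hF0 : Function.Bijective F0 := by
    constructor
    · intro u v h
      exact F_inj D (congrArg Subtype.val h)
    · rintro ⟨r, hr⟩
      obtain ⟨v, hv⟩ := F_surj D r hr
      exact ⟨v, Subtype.ext hv⟩
  let F' : H3 ≃* R := MulEquiv.ofBijective F0 hF0
  have hF' : ∀ v, ((F' v : R) : X) = F D v := fun v => rfl
  let e := SemidirectProduct.mulEquivSubgroup D.hc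
  let fn : R →* T := heisM.comp F'.symm.toMonoidHom
  let fg : H →* T := leviM.comp ρ
  have hfn : ∀ v, fn (F' v) = heisM v := by
    intro v
    simp [fn]
  have hcompat : ∀ g : H, fn.comp (((R.normalizerMonoidHom).comp
      (Subgroup.inclusion (R.normalizer_eq_top ▸ le_top))) g).toMonoidHom
        = (MulAut.conj (fg g)).toMonoidHom.comp fn := by
    intro g
    ext r
    obtain ⟨v, rfl⟩ := F'.surjective r
    have h1 : ((R.normalizerMonoidHom.comp (Subgroup.inclusion (R.normalizer_eq_top ▸ le_top))) g) (F' v)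
        = F' (actA (ρ g) v) := by
      apply Subtype.ext
      rw [hF', hρ, ← hF']
      rfl
    change fn (((R.normalizerMonoidHom.comp (Subgroup.inclusion _)) g) (F' v)) = (MulAut.conj (fg g)) (fn (F' v))
    rw [h1, hfn, hfn, MulAut.conj_apply]
    have h2 : fg g = leviM (ρ g) := rfl
    rw [h2, hrel]
    group
  let L := SemidirectProduct.lift fn fg hcompat
  refine ⟨L.comp e.symm.toMonoidHom, ?_, ?_⟩
  · rw [injective_iff_map_eq_one]
    intro x hx
    obtain ⟨y, rfl⟩ := e.surjective x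
    simp only [MonoidHom.comp_apply, MulEquiv.coe_toMonoidHom, MulEquiv.symm_apply_apply] at hx
    have h3 : L y = fn y.left * fg y.right := rfl
    rw [h3] at hx
    obtain ⟨v, hv⟩ := F'.surjective y.left
    rw [← hv, hfn] at hx
    have h4 := hinj v _ hx
    have h5 : y.right = 1 := by
      apply hρb.1
      rw [map_one]
      exact h4.2
    have h6 : y.left = 1 := by
      rw [← hv, h4.1, map_one]
    have h7 : y = 1 := by
      ext
      · rw [h6]; rfl
      · rw [h5]; rfl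
    rw [h7, map_one]
  · intro t
    constructor
    · rintro ⟨x, rfl⟩
      obtain ⟨y, rfl⟩ := e.surjective x
      simp only [MonoidHom.comp_apply, MulEquiv.coe_toMonoidHom, MulEquiv.symm_apply_apply]
      have h3 : L y = fn y.left * fg y.right := rfl
      rw [h3]
      obtain ⟨v, hv⟩ := F'.surjective y.left
      rw [← hv, hfn]
      exact ⟨v, _, rfl⟩
    · rintro ⟨v, A, rfl⟩
      obtain ⟨h, rfl⟩ := hρb.2 A
      refine ⟨e ⟨F' v, h⟩, ?_⟩
      simp only [MonoidHom.comp_apply, MulEquiv.coe_toMonoidHom, MulEquiv.symm_apply_apply]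
      have h3 : L ⟨F' v, h⟩ = fn (F' v) * fg h := rfl
      rw [h3, hfn]
      rfl

end Fmap

end Cfsg.Agent.Lib.H73C3
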