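import Mathlib
import Cfsg.Agent.Lib.H73C3
import Cfsg.Agent.Lib.SpCenter
import Cfsg.Agent.Lib.SLTransfer
import Cfsg.Prelude.Def_Classical

/-!
# The stabilizer of a vector in `Sp₄(3)`: explicit `H3 ⋊ SL₂(3)`.
-/

set_option autoImplicit false
set_option linter.all false

namespace Cfsg.Agent.Lib.H73C4

open Cfsg.Agent.Lib.H73C1 Cfsg.Agent.Lib.H73C3 Cfsg.Agent.Lib.SpBasic Cfsg.Agent.Lib.SpCenter
open Matrix

abbrev I4 := Fin 2 ⊕ Fin 2
abbrev G4 := Sp (Fin 2) (ZMod 3)

/-- The matrix of an element of `H3`. -/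
def heisMat (v : H3) : Matrix I4 I4 (ZMod 3) :=
  fromBlocks !![1, -v.y; 0, 1] !![v.s, v.x; v.x, 0] 0 !![1, 0; v.y, 1]

/-- The matrix of an element of `SL₂(3)`. -/
def leviMat (A : SL3) : Matrix I4 I4 (ZMod 3) :=
  fromBlocks !![1, 0; 0, A.1 0 0] !![0, 0; 0, A.1 0 1] !![0, 0; 0, A.1 1 0] !![1, 0; 0, A.1 1 1]

theorem heisMat_mem (v : H3) : heisMat v ∈ symplecticGroup (Fin 2) (ZMod 3) := by
  rw [SymplecticGroup.mem_iff]
  ext i j
  rcases i with i | i <;> rcases j with j | j <;> fin_cases i <;> fin_cases j <;>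
    simp [heisMat, Matrix.J, Matrix.mul_apply, Fintype.sum_sum_type, Fin.sum_univ_two] <;> ring1

theorem leviMat_mem (A : SL3) : leviMat A ∈ symplecticGroup (Fin 2) (ZMod 3) := by
  have hd : A.1 0 0 * A.1 1 1 - A.1 0 1 * A.1 1 0 = 1 := by
    have := A.2
    rwa [Matrix.det_fin_two] at this
  rw [SymplecticGroup.mem_iff]
  ext i j
  rcases i with i | i <;> rcases j with j | j <;> fin_cases i <;> fin_cases j <;>
    simp [leviMat, Matrix.J, Matrix.mul_apply, Fintype.sum_sum_type, Fin.sum_univ_two] <;>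
    first
    | ring1
    | linear_combination hd
    | linear_combination -hd

theorem det_eq (A : SL3) : A.1 0 0 * A.1 1 1 - A.1 0 1 * A.1 1 0 = 1 := by
  have := A.2
  rwa [Matrix.det_fin_two] at this

/-- `H3` inside `Sp₄(3)`. -/
def heisS (v : H3) : G4 := ⟨heisMat v, heisMat_mem v⟩
/-- `SL₂(3)` inside `Sp₄(3)`. -/
def leviS (A : SL3) : G4 := ⟨leviMat A, leviMat_mem A⟩

theorem heis_mul (u v : H3) : heisS (u * v) = heisS u * heisS v := by
  apply Subtype.ext
  show heisMat (u * v) = heisMat u * heisMat v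
  ext i j
  rcases i with i | i <;> rcases j with j | j <;> fin_cases i <;> fin_cases j <;>
    simp [heisMat, Matrix.mul_apply, Fintype.sum_sum_type, Fin.sum_univ_two] <;> ring1

theorem levi_mul (A B : SL3) : leviS (A * B) = leviS A * leviS B := by
  apply Subtype.ext
  show leviMat (A * B) = leviMat A * leviMat B
  ext i j
  rcases i with i | i <;> rcases j with j | j <;> fin_cases i <;> fin_cases j <;>
    simp [leviMat, Matrix.mul_apply, Fintype.sum_sum_type, Fin.sum_univ_two,
      Matrix.SpecialLinearGroup.coe_mul]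

def heisHom : H3 →* G4 := MonoidHom.mk' heisS heis_mul
def leviHom : SL3 →* G4 := MonoidHom.mk' leviS levi_mul

theorem hrel (A : SL3) (v : H3) : leviHom A * heisHom v = heisHom (actA A v) * leviHom A := by
  have hd := det_eq A
  apply Subtype.ext
  show leviMat A * heisMat v = heisMat (actA A v) * leviMat A
  ext i j
  rcases i with i | i <;> rcases j with j | j <;> fin_cases i <;> fin_cases j <;>
    simp [leviMat, heisMat, actA, Matrix.mul_apply, Fintype.sum_sum_type, Fin.sum_univ_two] <;>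
    first
    | ring1
    | linear_combination v.y * hd
    | linear_combination (- v.y) * hd
    | linear_combination v.x * hd
    | linear_combination (- v.x) * hd

/-- Entries of `heisS v * leviS A`. -/
theorem prod_mat (v : H3) (A : SL3) : (heisHom v * leviHom A).1 = fromBlocks
    !![1, v.x * A.1 1 0 - v.y * A.1 0 0; 0, A.1 0 0]
    !![v.s, v.x * A.1 1 1 - v.y * A.1 0 1; v.x, A.1 0 1]
    !![0, 0; 0, 0]
    !![1, 0; v.y, 1 * A.1 1 1] + fromBlocks 0 0 !![0, 0; 0, A.1 1 0] 0 := by
  show heisMat v * leviMat A = _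
  ext i j
  rcases i with i | i <;> rcases j with j | j <;> fin_cases i <;> fin_cases j <;>
    simp [leviMat, heisMat, Matrix.mul_apply, Fintype.sum_sum_type, Fin.sum_univ_two] <;> ring1

theorem hinj (v : H3) (A : SL3) (h : heisHom v * leviHom A = 1) : v = 1 ∧ A = 1 := by
  have h1 := prod_mat v A
  rw [h] at h1
  have e : ∀ i j, ((1 : G4).1 : Matrix I4 I4 (ZMod 3)) i j = _ := fun i j => congrFun (congrFun h1 i) j
  have e1 := e (Sum.inl 0) (Sum.inr 0)
  have e2 := e (Sum.inl 1) (Sum.inr 0)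
  have e3 := e (Sum.inr 1) (Sum.inr 0)
  have e4 := e (Sum.inl 1) (Sum.inl 1)
  have e5 := e (Sum.inl 1) (Sum.inr 1)
  have e6 := e (Sum.inr 1) (Sum.inl 1)
  have e7 := e (Sum.inr 1) (Sum.inr 1)
  simp [Matrix.one_apply] at e1 e2 e3 e4 e5 e6 e7
  constructor
  · ext
    · simpa using e2.symm
    · simpa using e3.symm
    · simpa using e1.symm
  · apply Subtype.ext
    ext i j
    fin_cases i <;> fin_cases j
    · simpa using e4.symm
    · simpa using e5.symm
    · simpa using e6.symm
    · simpa using e7.symm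

/-- The base vector. -/
abbrev e0 : I4 → ZMod 3 := eL 0

theorem smul_single (g : G4) (j : I4) (k : I4) : (g • (Pi.single j 1 : I4 → ZMod 3)) k = g.1 k j := by
  rw [Sp_smul_def, Matrix.mulVec_single_one]
  rfl

theorem ω_four (u w : I4 → ZMod 3) : ω u w =
    - u (Sum.inl 0) * w (Sum.inr 0) + u (Sum.inr 0) * w (Sum.inl 0)
    - u (Sum.inl 1) * w (Sum.inr 1) + u (Sum.inr 1) * w (Sum.inl 1) := by
  rw [ω_apply, Fin.sum_univ_two]
  ring

theorem stab_form (g : G4) (hg : g • e0 = e0) : ∃ v A, g = heisHom v * leviHom A := by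
  have hcol : ∀ k, g.1 k (Sum.inl 0) = (e0 : I4 → ZMod 3) k := by
    intro k
    rw [← smul_single g (Sum.inl 0) k]
    exact congrFun hg k
  have hω := ω_smul_smul g
  have hrow : ∀ j, g.1 (Sum.inr 0) j = (Pi.single j 1 : I4 → ZMod 3) (Sum.inr 0) := by
    intro j
    have := hω e0 (Pi.single j 1)
    rw [hg, ω_four, ω_four] at this
    simpa [smul_single] using this
  have e1 := hω (eL 1) (eR 1)
  have e2 := hω (eL 1) (eR 0)
  have e3 := hω (eR 1) (eR 0)
  rw [ω_four, ω_four] at e1 e2 e3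
  simp only [smul_single, hrow, hcol] at e1 e2 e3
  simp at e1 e2 e3
  have hdet : (!![g.1 (Sum.inl 1) (Sum.inl 1), g.1 (Sum.inl 1) (Sum.inr 1);
      g.1 (Sum.inr 1) (Sum.inl 1), g.1 (Sum.inr 1) (Sum.inr 1)] : Matrix (Fin 2) (Fin 2) (ZMod 3)).det = 1 := by
    rw [Matrix.det_fin_two_of]
    linear_combination -e1
  refine ⟨⟨g.1 (Sum.inl 1) (Sum.inr 0), g.1 (Sum.inr 1) (Sum.inr 0), g.1 (Sum.inl 0) (Sum.inr 0)⟩,
    ⟨_, hdet⟩, ?_⟩
  apply Subtype.ext
  show g.1 = heisMat _ * leviMat _
  ext i j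
  rcases i with i | i <;> rcases j with j | j <;> fin_cases i <;> fin_cases j <;>
    simp [leviMat, heisMat, Matrix.mul_apply, Fintype.sum_sum_type, Fin.sum_univ_two, hcol, hrow]
  · linear_combination -e2
  · linear_combination -e3

theorem fix_form (v : H3) (A : SL3) : (heisHom v * leviHom A) • e0 = e0 := by
  have h1 := prod_mat v A
  ext k
  rw [smul_single, h1]
  rcases k with i | i <;> fin_cases i <;> simp

/-- The stabilizer of the base vector. -/
abbrev Stab : Subgroup G4 := MulAction.stabilizer G4 e0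

theorem mem_Stab {g : G4} : g ∈ Stab ↔ g • e0 = e0 := MulAction.mem_stabilizer_iff

/-- The group `PSp₄(3)`. -/
abbrev P0 := Cfsg.PSp 2 (ZMod 3)

/-- The transvection. -/
noncomputable def t0 : G4 := T e0 1

/-- The `3`-central element. -/
noncomputable def c0 : P0 := QuotientGroup.mk t0

theorem ω_e0_eR : ω e0 (eR 0 : I4 → ZMod 3) = -1 := by
  rw [ω_eR_right]; simp

theorem t0_eR : t0 • (eR 0 : I4 → ZMod 3) = eR 0 - e0 := by
  rw [t0, T_smul, ω_e0_eR]
  simp [sub_eq_add_neg]

theorem t0_e0 : t0 • e0 = e0 := by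
  rw [t0, T_smul, ω_self]
  simp

theorem e0_ne : (e0 : I4 → ZMod 3) ≠ 0 := by
  intro h
  have := congrFun h (Sum.inl 0)
  simp at this

theorem e0_ne_neg : (e0 : I4 → ZMod 3) ≠ -e0 := by
  intro h
  have := congrFun h (Sum.inl 0)
  simp at this
  exact absurd this (by decide)

theorem c0_pow : c0 ^ 3 = 1 := by
  have h : t0 ^ 3 = 1 := by
    have h1 : t0 ^ 3 = T e0 (1 + 1 + 1) := by
      rw [pow_succ, pow_two, t0, T_mul, T_mul]
    rw [h1]
    have : (1 + 1 + 1 : ZMod 3) = 0 := by decide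
    rw [this, T_zero_right]
  rw [c0, ← QuotientGroup.mk_pow, h]
  rfl

theorem c0_ne : c0 ≠ 1 := by
  intro h
  rw [c0, QuotientGroup.eq_one_iff, mem_center_iff] at h
  have h1 := t0_eR
  rcases h with h | h
  · rw [h, one_smul] at h1
    have := congrFun h1 (Sum.inl 0)
    simp at this
  · rw [h, negOne_smul] at h1
    have := congrFun h1 (Sum.inr 0)
    simp at this
    exact absurd this (by decide)

theorem c0_order : orderOf c0 = 3 := by
  haveI : Fact (Nat.Prime 3) := ⟨Nat.prime_three⟩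
  exact orderOf_eq_prime c0_pow c0_ne

theorem stab_comm (g : G4) (hg : g • e0 = e0) : g * t0 = t0 * g := by
  have := T_conj g e0 1
  rw [hg] at this
  calc g * t0 = g * t0 * g⁻¹ * g := by group
    _ = t0 * g := by rw [t0, this]

theorem zm3' : ∀ l : ZMod 3, l = 0 ∨ l = 1 ∨ l = -1 := by decide

theorem of_comm (g : G4) (h : (QuotientGroup.mk g : P0) * c0 = c0 * QuotientGroup.mk g) :
    g • e0 = e0 ∨ g • e0 = -e0 := by
  have h1 : (QuotientGroup.mk (g * t0 * g⁻¹ * t0⁻¹) : P0) = 1 := by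
    simp only [QuotientGroup.mk_mul, QuotientGroup.mk_inv]
    change (QuotientGroup.mk g : P0) * c0 * (QuotientGroup.mk g : P0)⁻¹ * c0⁻¹ = 1
    rw [h]
    group
  rw [QuotientGroup.eq_one_iff, mem_center_iff] at h1
  obtain ⟨w, hw⟩ : ∃ w, w = g • e0 := ⟨_, rfl⟩
  have hT : g * t0 * g⁻¹ = T w 1 := by rw [t0, T_conj, hw]
  rw [hT] at h1
  rw [← hw]
  rcases h1 with h1 | h1
  · -- `T w 1 = T e0 1`
    have h2 : T w 1 = t0 := mul_inv_eq_one.mp h1
    have h3 := congrArg (· • (eR 0 : I4 → ZMod 3)) h2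
    simp only [t0_eR, T_smul] at h3
    have h4 : ω w (eR 0 : I4 → ZMod 3) • w = - e0 := by
      have : (eR 0 : I4 → ZMod 3) + (1 * ω w (eR 0 : I4 → ZMod 3)) • w = eR 0 - e0 := h3
      rw [one_mul] at this
      rw [← sub_eq_zero] at this ⊢
      rw [← this]
      abel
    obtain ⟨l, hl⟩ : ∃ l, l = ω w (eR 0 : I4 → ZMod 3) := ⟨_, rfl⟩
    rw [← hl] at h4
    have hcases := zm3' l
    rcases hcases with rfl | rfl | rfl
    · rw [zero_smul] at h4
      exact absurd (neg_eq_zero.1 h4.symm) e0_ne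
    · right; simpa using h4
    · left; simpa using h4
  · exfalso
    have h2 : T w 1 = negOne * t0 := by
      rw [← h1]; group
    have h3 := congrArg (· • (e0 : I4 → ZMod 3)) h2
    simp only [mul_smul, t0_e0, negOne_smul, T_smul, one_smul] at h3
    have h4 : ω w (e0 : I4 → ZMod 3) • w = e0 := by
      have h5 : (e0 : I4 → ZMod 3) + (ω w e0) • w = - e0 := h3
      have h6 : (3 : ZMod 3) = 0 := by decide
      ext k
      have h7 := congrFun h5 k
      simp only [Pi.add_apply, Pi.smul_apply, Pi.neg_apply, smul_eq_mul] at h7 ⊢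
      linear_combination h7 - e0 k * h6
    obtain ⟨l, hl⟩ : ∃ l, l = ω w (e0 : I4 → ZMod 3) := ⟨_, rfl⟩
    rw [← hl] at h4
    have hcases := zm3' l
    have hl0 : l = 0 := by
      have hww : ω w w = 0 := ω_self w
      rcases hcases with rfl | rfl | rfl
      · rfl
      · rw [one_smul] at h4
        rw [h4, ω_self] at hl
        exact hl
      · have h8 : w = -e0 := by
          rw [← h4]; simp
        rw [h8, ω_neg_left, ω_self] at hl
        simpa using hl
    rw [hl0, zero_smul] at h4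
    exact e0_ne h4.symm

/-- The map from the stabilizer to `PSp₄(3)`. -/
noncomputable def toP : Stab →* P0 := (QuotientGroup.mk' _).comp Stab.subtype

theorem toP_inj : Function.Injective toP := by
  rw [injective_iff_map_eq_one]
  rintro ⟨g, hg⟩ h
  have h1 : (QuotientGroup.mk g : P0) = 1 := h
  rw [QuotientGroup.eq_one_iff, mem_center_iff] at h1
  rcases h1 with rfl | rfl
  · rfl
  · exfalso
    rw [mem_Stab, negOne_smul] at hg
    exact e0_ne_neg hg.symm

theorem toP_range : toP.range = Subgroup.centralizer ({c0} : Set P0) := by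
  ext y
  rw [Subgroup.mem_centralizer_singleton_iff]
  constructor
  · rintro ⟨⟨g, hg⟩, rfl⟩
    rw [mem_Stab] at hg
    have h1 := stab_comm g hg
    show (QuotientGroup.mk g : P0) * QuotientGroup.mk t0 = QuotientGroup.mk t0 * QuotientGroup.mk g
    rw [← QuotientGroup.mk_mul, ← QuotientGroup.mk_mul, h1]
  · intro hy
    obtain ⟨g, rfl⟩ := QuotientGroup.mk_surjective y
    rcases of_comm g hy with h | h
    · exact ⟨⟨g, mem_Stab.2 h⟩, rfl⟩
    · refine ⟨⟨negOne * g, mem_Stab.2 (by rw [mul_smul, h, negOne_smul, neg_neg])⟩, ?_⟩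
      show (QuotientGroup.mk (negOne * g) : P0) = QuotientGroup.mk g
      rw [QuotientGroup.mk_mul]
      have : (QuotientGroup.mk negOne : P0) = 1 := by
        rw [QuotientGroup.eq_one_iff]
        exact negOne_mem_center
      rw [this, one_mul]

/-- The stabilizer is the centralizer. -/
noncomputable def stabEquiv : Stab ≃* Subgroup.centralizer ({c0} : Set P0) :=
  (MonoidHom.ofInjective toP_inj).trans (MulEquiv.subgroupCongr toP_range)

theorem card_orbit : (MulAction.orbit G4 e0).ncard = 80 := by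
  have h1 : MulAction.orbit G4 e0 = ({0} : Set (I4 → ZMod 3))ᶜ := by
    ext x
    simp only [Set.mem_compl_iff, Set.mem_singleton_iff]
    constructor
    · rintro ⟨g, rfl⟩ h
      have h2 : g • e0 = 0 := h
      apply e0_ne
      have := congrArg (g⁻¹ • ·) h2
      simpa using this
    · intro h
      obtain ⟨g, hg⟩ := exists_smul_eq_of_ne_zero (l := Fin 2) (F := ZMod 3) e0_ne h
      exact ⟨g, hg⟩
  rw [h1, Set.ncard_compl, Set.ncard_singleton]
  have : Nat.card (I4 → ZMod 3) = 81 := by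
    rw [Nat.card_eq_fintype_card]
    simp
  rw [this]

theorem card_P0 : Nat.card P0 = Nat.card (Subgroup.centralizer ({c0} : Set P0)) * 40 := by
  have h1 := Subgroup.card_mul_index Stab
  rw [MulAction.index_stabilizer, card_orbit] at h1
  have h2 := Subgroup.card_eq_card_quotient_mul_card_subgroup (Subgroup.center G4)
  have h3 : Nat.card (Subgroup.center G4) = 2 := by
    rw [card_center]
    simp
  rw [h3] at h2
  have h4 : Nat.card Stab = Nat.card (Subgroup.centralizer ({c0} : Set P0)) :=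
    Nat.card_congr stabEquiv.toEquiv
  rw [← h4]
  show Nat.card (G4 ⧸ Subgroup.center G4) = _
  omega

end Cfsg.Agent.Lib.H73C4
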