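import Mathlib
import Cfsg.Agent.Lib.QuadAbs
import Cfsg.Agent.Lib.MaxPNilp

/-!
# A transvection normalizing a `q`-group of automorphisms of an elementary abelian `p`-group.
-/

set_option autoImplicit false

open scoped commutatorElement
open Cfsg

namespace Cfsg.Agent.Lib.H73Off1

open Cfsg.Agent.Lib.QuadAbs Cfsg.Agent.Lib.PCore Cfsg.Agent.Lib.PSolv

variable {W : Type*} [CommGroup W] [Finite W] {p q : ℕ} [hp : Fact p.Prime] [hq : Fact q.Prime]

/-- The commutator map of an automorphism, as a homomorphism. -/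
def cmap (t : MulAut W) : W →* W :=
  MonoidHom.mk' (fun w => t w / w) (by
    intro a b
    rw [map_mul]
    exact mul_div_mul_comm _ _ _ _)

@[simp] theorem cmap_apply (t : MulAut W) (w : W) : cmap t w = t w / w := rfl

theorem mem_ker_cmap (t : MulAut W) (w : W) : w ∈ (cmap t).ker ↔ t w = w := by
  rw [MonoidHom.mem_ker, cmap_apply, div_eq_one]

theorem card_range_cmap_le (t : MulAut W) (hcard : Nat.card W ≤ p * Nat.card (cmap t).ker) :
    Nat.card (cmap t).range ≤ p := by
  have h1 : Nat.card (cmap t).ker * Nat.card (cmap t).range = Nat.card W := by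
    have := Subgroup.card_mul_index (cmap t).ker
    rw [Subgroup.index_ker] at this
    exact this
  have hpos : 0 < Nat.card (cmap t).ker := Nat.card_pos
  rw [← h1, mul_comm p] at hcard
  exact Nat.le_of_mul_le_mul_left hcard hpos

omit [Finite W] hp in
theorem aut_pow_power (t : MulAut W) (a : W) (k : ℕ) (h : t a = a ^ k) (j : ℕ) :
    (t ^ j) a = a ^ (k ^ j) := by
  induction j with
  | zero => simp
  | succ j ih =>
    rw [pow_succ', MulAut.mul_apply, ih, map_pow, h, ← pow_mul, pow_succ']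

/-- The range is generated by one element `a`, fixed by `t` if `t ^ p = 1`. -/
theorem exists_gen (hW : ∀ w : W, w ^ p = 1) (t : MulAut W) (ht : t ^ p = 1)
    (hcard : Nat.card W ≤ p * Nat.card (cmap t).ker) :
    ∃ a : W, t a = a ∧ ∀ w, ∃ k : ℕ, t w / w = a ^ k := by
  by_cases htriv : ∀ w, t w / w = 1
  · exact ⟨1, map_one t, fun w => ⟨0, by rw [htriv w, pow_zero]⟩⟩
  push Not at htriv
  obtain ⟨w₀, hw₀⟩ := htriv
  set a := t w₀ / w₀ with ha
  have hord : orderOf a = p := orderOf_eq_prime (hW a) hw₀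
  have hle : Subgroup.zpowers a ≤ (cmap t).range := by
    rw [Subgroup.zpowers_le]
    exact ⟨w₀, rfl⟩
  have hc : Nat.card (cmap t).range ≤ Nat.card (Subgroup.zpowers a) := by
    rw [Nat.card_zpowers, hord]
    exact card_range_cmap_le t hcard
  have heq : Subgroup.zpowers a = (cmap t).range := Subgroup.eq_of_le_of_card_ge hle hc
  have hmem : ∀ x ∈ (cmap t).range, ∃ k : ℕ, x = a ^ k := by
    intro x hx
    rw [← heq] at hx
    obtain ⟨k, hk⟩ := (mem_powers_iff_mem_zpowers.mpr hx)
    exact ⟨k, hk.symm⟩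
  have htinv : t a ∈ (cmap t).range := ⟨t w₀, by
    simp only [cmap_apply, ha, map_div]⟩
  obtain ⟨k, hk⟩ := hmem _ htinv
  have h1 := aut_pow_power t a k hk p
  rw [ht] at h1
  have h2 : a ^ 1 = a ^ (k ^ p) := by
    rw [pow_one]
    exact h1
  rw [pow_eq_pow_iff_modEq, hord] at h2
  have h3 : k ≡ 1 [MOD p] := by
    have h4 : ((k : ZMod p)) = 1 := by
      have h5 : ((k ^ p : ℕ) : ZMod p) = (1 : ℕ) := ((ZMod.natCast_eq_natCast_iff _ _ _).mpr h2).symm
      push_cast at h5
      rwa [ZMod.pow_card] at h5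
    have h5 : (k : ZMod p) = ((1 : ℕ) : ZMod p) := by simpa using h4
    exact (ZMod.natCast_eq_natCast_iff _ _ _).mp h5
  refine ⟨a, ?_, fun w => hmem _ ⟨w, rfl⟩⟩
  rw [hk]
  have h6 : a ^ k = a ^ 1 := by
    rw [pow_eq_pow_iff_modEq, hord]
    exact h3
  rw [h6, pow_one]

/-- `t` is quadratic. -/
theorem quad_of_card (hW : ∀ w : W, w ^ p = 1) (t : MulAut W) (ht : t ^ p = 1)
    (hcard : Nat.card W ≤ p * Nat.card (cmap t).ker) (m : W) : t (t m / m) = t m / m := by
  obtain ⟨a, hta, h⟩ := exists_gen hW t ht hcard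
  obtain ⟨k, hk⟩ := h m
  rw [hk, map_pow, hta]

omit hq [Finite W] hp in
theorem isPSolvable_of_subsingleton {G : Type*} [Group G] [Subsingleton G] (p : ℕ) :
    IsPSolvable p G := by
  refine ⟨0, fun _ => ⊥, rfl, Subsingleton.elim _ _, fun _ _ _ => le_rfl, fun _ => inferInstance, ?_⟩
  intro i
  exact i.elim0

omit hq [Finite W] hp in
theorem isPSolvable_of_card_pow {G : Type*} [Group G] (p m : ℕ) (h : Nat.card G = p ^ m) :
    IsPSolvable p G := by
  haveI : Subsingleton (G ⧸ (⊤ : Subgroup G)) := QuotientGroup.subsingleton_quotient_top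
  refine Cfsg.Agent.Lib.MaxPNilp.isPSolvable_of_quotient p (⊤ : Subgroup G) (Or.inl ⟨m, ?_⟩)
    (isPSolvable_of_subsingleton p)
  rw [Subgroup.card_top, h]

omit [Finite W] in
theorem eq_one_of_pows {G : Type*} [Group G] {x : G} {a b : ℕ} (hpq : p ≠ q) (h1 : x ^ p ^ a = 1)
    (h2 : x ^ q ^ b = 1) : x = 1 := by
  have h3 : orderOf x ∣ p ^ a := orderOf_dvd_of_pow_eq_one h1
  have h4 : orderOf x ∣ q ^ b := orderOf_dvd_of_pow_eq_one h2
  have h5 : (p ^ a).Coprime (q ^ b) := Nat.Coprime.pow _ _ ((Nat.coprime_primes hp.out hq.out).mpr hpq)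
  exact orderOf_eq_one_iff.mp (Nat.eq_one_of_dvd_coprimes h5 h3 h4)

/-- The case `p` odd of the core lemma. -/
theorem core_odd (hpq : p ≠ q) (hp2 : p ≠ 2) (hW : ∀ w : W, w ^ p = 1) (N : Subgroup (MulAut W))
    (t : MulAut W) (ht : t ^ p = 1) (hN : IsPGroup q N) (hnorm : ∀ n ∈ N, t * n * t⁻¹ ∈ N)
    (hnc : ∃ n ∈ N, t * n ≠ n * t) (hcard : Nat.card W ≤ p * Nat.card (cmap t).ker) :
    p = 3 ∧ q = 2 := by
  classical
  have hFin : Finite (MulAut W) := inferInstance
  have htN : t ∈ Subgroup.normalizer (N : Set (MulAut W)) := by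
    have h1 : N.map (MulAut.conj t).toMonoidHom ≤ N := by
      rintro _ ⟨n, hn, rfl⟩
      exact hnorm n hn
    have h2 : N.map (MulAut.conj t).toMonoidHom = N := by
      apply Subgroup.eq_of_le_of_card_ge h1
      rw [Subgroup.card_map_of_injective (MulAut.conj t).injective]
    rw [Subgroup.mem_normalizer_iff_map_conj_eq]
    exact h2
  set Γ : Subgroup (MulAut W) := N ⊔ Subgroup.zpowers t with hΓ
  have htΓ : t ∈ Γ := (le_sup_right : Subgroup.zpowers t ≤ Γ) (Subgroup.mem_zpowers t)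
  have hNΓ : N ≤ Γ := le_sup_left
  have hΓnorm : Γ ≤ Subgroup.normalizer (N : Set (MulAut W)) := by
    refine sup_le Subgroup.le_normalizer ?_
    rwa [Subgroup.zpowers_le]
  set N' : Subgroup Γ := N.subgroupOf Γ with hN'
  haveI hN'n : N'.Normal := Subgroup.normal_subgroupOf_of_le_normalizer hΓnorm
  set t' : Γ := ⟨t, htΓ⟩ with ht'
  have ht'p : t' ^ p = 1 := Subtype.ext (by simpa using ht)
  have hsupt : N' ⊔ Subgroup.zpowers t' = ⊤ := by
    apply Subgroup.map_injective Γ.subtype_injective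
    rw [Subgroup.map_sup, hN', Subgroup.subgroupOf_map_subtype, MonoidHom.map_zpowers,
      inf_eq_left.mpr hNΓ, ← MonoidHom.range_eq_map, Subgroup.range_subtype]
    rfl
  have hidx : N'.index ∣ p := by
    have h1 : N'.index = N'.relIndex (Subgroup.zpowers t') := by
      rw [← Subgroup.relIndex_sup_left, hsupt, Subgroup.relIndex_top_right]
    rw [h1]
    refine (Subgroup.relIndex_dvd_card _ _).trans ?_
    rw [Nat.card_zpowers]
    exact orderOf_dvd_of_pow_eq_one ht'p
  have hN'c : (Nat.card N').Coprime p := by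
    have h1 : Nat.card N' = Nat.card N := by
      rw [hN']
      exact Nat.card_congr (Subgroup.subgroupOfEquivOfLe hNΓ).toEquiv
    rw [h1]
    obtain ⟨k, hk⟩ := IsPGroup.iff_card.mp hN
    rw [hk]
    exact Nat.Coprime.pow_left _ ((Nat.coprime_primes hq.out hp.out).mpr (Ne.symm hpq))
  have hquot : Nat.card (Γ ⧸ N') ∣ p := by
    rw [← Subgroup.index_eq_card]
    exact hidx
  have hsep : IsPSolvable p Γ := by
    refine Cfsg.Agent.Lib.MaxPNilp.isPSolvable_of_quotient p N' (Or.inr hN'c) ?_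
    obtain ⟨m, _, hm⟩ := (Nat.dvd_prime_pow hp.out).mp (by simpa using hquot : Nat.card (Γ ⧸ N') ∣ p ^ 1)
    exact isPSolvable_of_card_pow p m hm
  let σ : Γ →* MulAut W := Γ.subtype
  have hσ : Function.Injective σ := Γ.subtype_injective
  have hquad : IsQuad σ t' := fun m => quad_of_card hW t ht hcard m
  have hna : t' ∉ pCore p Γ := by
    intro hmem
    obtain ⟨n, hn, htn⟩ := hnc
    apply htn
    have hnΓ : n ∈ Γ := hNΓ hn
    set n' : Γ := ⟨n, hnΓ⟩ with hn'
    have hn'N : n' ∈ N' := by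
      rw [hN', Subgroup.mem_subgroupOf]
      exact hn
    have hc1 : ⁅t', n'⁆ ∈ pCore p Γ := by
      rw [commutatorElement_def]
      have h1 : n' * t'⁻¹ * n'⁻¹ ∈ pCore p Γ :=
        (inferInstance : (pCore p Γ).Normal).conj_mem _ ((pCore p Γ).inv_mem hmem) n'
      have h2 := (pCore p Γ).mul_mem hmem h1
      convert h2 using 1
      group
    have hc2 : ⁅t', n'⁆ ∈ N' := by
      rw [commutatorElement_def]
      have h1 : t' * n' * t'⁻¹ ∈ N' := hN'n.conj_mem _ hn'N t'
      exact N'.mul_mem h1 (N'.inv_mem hn'N)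
    have hc3 : ⁅t', n'⁆ = 1 := by
      obtain ⟨a, ha⟩ := isPGroup_pCore p ⟨_, hc1⟩
      have hN'q : IsPGroup q N' := by
        rintro ⟨x, hx⟩
        rw [hN', Subgroup.mem_subgroupOf] at hx
        obtain ⟨b, hb⟩ := hN ⟨x, hx⟩
        refine ⟨b, Subtype.ext (Subtype.ext ?_)⟩
        have := congrArg Subtype.val hb
        simpa using this
      obtain ⟨b, hb⟩ := hN'q ⟨_, hc2⟩
      exact eq_one_of_pows hpq (congrArg Subtype.val ha) (congrArg Subtype.val hb)
    have h4 : t' * n' = n' * t' := commutatorElement_eq_one_iff_mul_comm.mp hc3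
    exact congrArg Subtype.val h4
  have h3 : p = 3 := (thmD hp2 hW σ hσ hsep hquad hna).1
  refine ⟨h3, ?_⟩
  haveI : Fact (Nat.Prime 2) := ⟨Nat.prime_two⟩
  obtain ⟨T⟩ : Nonempty (Sylow 2 Γ) := inferInstance
  have hT := thmC hp2 hW σ hσ hquad hna T
  by_contra hq2
  apply hT
  have hcardΓ : Nat.card Γ = Nat.card N' * N'.index := Subgroup.card_mul_index N' |>.symm
  have hcop : (Nat.card Γ).Coprime 2 := by
    rw [hcardΓ]
    apply Nat.Coprime.mul_left
    · have h1 : Nat.card N' = Nat.card N := by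
        rw [hN']
        exact Nat.card_congr (Subgroup.subgroupOfEquivOfLe hNΓ).toEquiv
      rw [h1]
      obtain ⟨k, hk⟩ := IsPGroup.iff_card.mp hN
      rw [hk]
      exact Nat.Coprime.pow_left _ ((Nat.coprime_primes hq.out Nat.prime_two).mpr hq2)
    · refine Nat.Coprime.coprime_dvd_left hidx ?_
      rw [h3]
      norm_num
  have hT1 : Nat.card T = 1 := by
    obtain ⟨k, hk⟩ := IsPGroup.iff_card.mp T.isPGroup'
    have h1 : Nat.card T ∣ Nat.card Γ := Subgroup.card_subgroup_dvd_card _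
    have h2 : Nat.card T ∣ 2 ^ k := by rw [hk]
    exact Nat.eq_one_of_dvd_coprimes (Nat.Coprime.pow_right k hcop) h1 h2
  haveI : Subsingleton T := (Nat.card_eq_one_iff_unique.mp hT1).1
  exact ⟨⟨fun a b => Subsingleton.elim _ _⟩⟩

theorem cmap_mul (s t : MulAut W) (w : W) : cmap (s * t) w = cmap s (t w) * cmap t w := by
  simp only [cmap_apply, MulAut.mul_apply]
  exact (div_mul_div_cancel _ _ _).symm

theorem cmap_mem_pow {L : Subgroup W} (z : MulAut W) (h : ∀ w, cmap z w ∈ L) (n : ℕ) (w : W) :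
    cmap (z ^ n) w ∈ L := by
  induction n generalizing w with
  | zero =>
    have : cmap (z ^ 0) w = 1 := by simp
    rw [this]
    exact L.one_mem
  | succ n ih =>
    rw [pow_succ, cmap_mul]
    exact L.mul_mem (ih _) (h w)

/-- The case `p = 2` of the core lemma. -/
theorem core_two (hq2 : q ≠ 2) (hW : ∀ w : W, w ^ 2 = 1) (N : Subgroup (MulAut W))
    (t : MulAut W) (ht : t ^ 2 = 1) (hN : IsPGroup q N) (hnorm : ∀ n ∈ N, t * n * t⁻¹ ∈ N)
    (hnc : ∃ n ∈ N, t * n ≠ n * t) (hcard : Nat.card W ≤ 2 * Nat.card (cmap t).ker) :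
    q = 3 := by
  classical
  haveI : Fact (Nat.Prime 2) := ⟨Nat.prime_two⟩
  obtain ⟨a, hta, hact⟩ := exists_gen (p := 2) hW t ht hcard
  obtain ⟨n, hn, htn⟩ := hnc
  have htinv : t⁻¹ = t := by
    rw [inv_eq_iff_mul_eq_one, ← pow_two, ht]
  set b : W := n a with hb
  set t' : MulAut W := n * t * n⁻¹ with ht'
  set L : Subgroup W := Subgroup.closure {a, b} with hL
  have haL : a ∈ L := Subgroup.subset_closure (by simp)
  have hbL : b ∈ L := Subgroup.subset_closure (by simp)
  have hct : ∀ w, cmap t w ∈ L := by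
    intro w
    obtain ⟨k, hk⟩ := hact w
    rw [cmap_apply, hk]
    exact L.pow_mem haL k
  have hct' : ∀ w, cmap t' w ∈ L := by
    intro w
    obtain ⟨k, hk⟩ := hact (n⁻¹ w)
    have h1 : t' w / w = n (t (n⁻¹ w) / n⁻¹ w) := by
      rw [map_div, ht']
      simp [MulAut.mul_apply]
    rw [cmap_apply, h1, hk, map_pow]
    exact L.pow_mem hbL k
  set z : MulAut W := t * t' with hz
  have hcz : ∀ w, cmap z w ∈ L := by
    intro w
    rw [hz, cmap_mul]
    exact L.mul_mem (hct _) (hct' w)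
  have hzN : z ∈ N := by
    have h1 : z = (t * n * t⁻¹) * n⁻¹ := by
      rw [hz, ht', htinv]
      group
    rw [h1]
    exact N.mul_mem (hnorm n hn) (N.inv_mem hn)
  have hz1 : z ≠ 1 := by
    intro h
    apply htn
    have h1 : t * (n * t * n⁻¹) = 1 := h
    have h2 : n * t * n⁻¹ = t := by
      have := eq_inv_of_mul_eq_one_right h1
      rwa [htinv] at this
    exact (mul_inv_eq_iff_eq_mul.mp h2).symm
  obtain ⟨k, hk⟩ := hN ⟨z, hzN⟩
  have hzk : z ^ q ^ k = 1 := by
    have := congrArg Subtype.val hk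
    simpa using this
  -- the elements of `L`
  have hLmem : ∀ x ∈ L, x = 1 ∨ x = a ∨ x = b ∨ x = a * b := by
    intro x hx
    obtain ⟨i, j, rfl⟩ := Subgroup.mem_closure_pair.mp hx
    have hpa : ∀ i : ℤ, a ^ i = 1 ∨ a ^ i = a := by
      intro i
      rcases Int.even_or_odd i with h | h
      · left
        obtain ⟨m, rfl⟩ := h
        rw [← two_mul, zpow_mul, zpow_two, ← pow_two, hW, one_zpow]
      · right
        obtain ⟨m, rfl⟩ := h
        rw [zpow_add, zpow_mul, zpow_two, ← pow_two, hW, one_zpow, one_mul, zpow_one]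
    have hpb : ∀ i : ℤ, b ^ i = 1 ∨ b ^ i = b := by
      intro i
      rcases Int.even_or_odd i with h | h
      · left
        obtain ⟨m, rfl⟩ := h
        rw [← two_mul, zpow_mul, zpow_two, ← pow_two, hW, one_zpow]
      · right
        obtain ⟨m, rfl⟩ := h
        rw [zpow_add, zpow_mul, zpow_two, ← pow_two, hW, one_zpow, one_mul, zpow_one]
    rcases hpa i with h1 | h1 <;> rcases hpb j with h2 | h2 <;> rw [h1, h2] <;> simp
  have hzL : ∀ x ∈ L, z x ∈ L := by
    intro x hx
    have h1 : z x = cmap z x * x := by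
      rw [cmap_apply, div_mul_cancel]
    rw [h1]
    exact L.mul_mem (hcz x) hx
  -- `z ^ 6` fixes `L`
  have hz6 : ∀ x ∈ L, (z ^ 6) x = x := by
    intro x hx
    by_cases hx1 : x = 1
    · rw [hx1, map_one]
    set S : Finset W := ({a, b, a * b} : Finset W).erase 1 with hS
    have hScard : S.card ≤ 3 := by
      refine (Finset.card_erase_le).trans ?_
      exact Finset.card_le_three
    have hSmem : ∀ y ∈ L, y ≠ 1 → y ∈ S := by
      intro y hy hy1
      rw [hS, Finset.mem_erase]
      refine ⟨hy1, ?_⟩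
      rcases hLmem y hy with h | h | h | h
      · exact absurd h hy1
      · simp [h]
      · simp [h]
      · simp [h]
    have hpowL : ∀ i : ℕ, (z ^ i) x ∈ L := by
      intro i
      induction i with
      | zero => simpa using hx
      | succ i ih =>
        rw [pow_succ', MulAut.mul_apply]
        exact hzL _ ih
    have hmaps : ∀ i ∈ (Finset.univ : Finset (Fin 4)), (z ^ (i : ℕ)) x ∈ S := by
      intro i _
      apply hSmem _ (hpowL i)
      intro h
      apply hx1
      exact (map_eq_one_iff (z ^ (i : ℕ)) (MulEquiv.injective _)).mp h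
    have hc : S.card < (Finset.univ : Finset (Fin 4)).card := by
      simp only [Finset.card_univ, Fintype.card_fin]
      omega
    obtain ⟨i, _, j, _, hij, heq⟩ := Finset.exists_ne_map_eq_of_card_lt_of_maps_to hc hmaps
    -- `z ^ d` fixes `x` with `d = |i - j|`
    have key : ∀ i j : Fin 4, (i : ℕ) < j → (z ^ (i : ℕ)) x = (z ^ (j : ℕ)) x → (z ^ 6) x = x := by
      intro i j hlt he
      set d := (j : ℕ) - i with hd
      have hdpos : 0 < d := Nat.sub_pos_of_lt hlt
      have hdle : d ≤ 3 := by omega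
      have hj : (j : ℕ) = i + d := by omega
      have hfix : (z ^ d) x = x := by
        have h1 : (z ^ (i : ℕ)) ((z ^ d) x) = (z ^ (i : ℕ)) x := by
          rw [← MulAut.mul_apply, ← pow_add, ← hj]
          exact he.symm
        exact (MulEquiv.injective _) h1
      have hdvd : d ∣ 6 := by
        interval_cases d <;> norm_num
      obtain ⟨e, he'⟩ := hdvd
      have hpow : ∀ m : ℕ, ((z ^ d) ^ m) x = x := by
        intro m
        induction m with
        | zero => simp
        | succ m ih =>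
          rw [pow_succ, MulAut.mul_apply, hfix, ih]
      rw [he', pow_mul]
      exact hpow e
    rcases lt_or_gt_of_ne (fun h => hij (Fin.ext h) : (i : ℕ) ≠ j) with h | h
    · exact key i j h heq
    · exact key j i h heq.symm
  -- `z ^ 12 = 1`
  have hz12 : z ^ 12 = 1 := by
    ext w
    have h1 := cmap_mem_pow z hcz 6 w
    have h2 : (z ^ 6) w = w * cmap (z ^ 6) w := by
      rw [cmap_apply, mul_div_cancel]
    have h3 : z ^ 12 = z ^ 6 * z ^ 6 := by rw [← pow_add]
    rw [h3, MulAut.mul_apply, h2, map_mul, h2, hz6 _ h1, mul_assoc, ← pow_two, hW, mul_one]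
    rfl
  by_contra hq3
  apply hz1
  have hcop : Nat.Coprime 12 (q ^ k) := by
    apply Nat.Coprime.pow_right
    have h12 : (12 : ℕ) = 2 ^ 2 * 3 := by norm_num
    rw [h12]
    apply Nat.Coprime.mul_left
    · exact Nat.Coprime.pow_left _ ((Nat.coprime_primes Nat.prime_two hq.out).mpr (Ne.symm hq2))
    · exact (Nat.coprime_primes Nat.prime_three hq.out).mpr (Ne.symm hq3)
  have h1 : orderOf z ∣ 12 := orderOf_dvd_of_pow_eq_one hz12
  have h2 : orderOf z ∣ q ^ k := orderOf_dvd_of_pow_eq_one hzk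
  exact orderOf_eq_one_iff.mp (Nat.eq_one_of_dvd_coprimes hcop h1 h2)

/-- **Core lemma**: a transvection normalizing, but not centralizing, a `q`-group of automorphisms of an elementary
abelian `p`-group forces `{p, q} = {2, 3}`. -/
theorem core_lemma (hpq : p ≠ q) (hW : ∀ w : W, w ^ p = 1) (N : Subgroup (MulAut W))
    (t : MulAut W) (ht : t ^ p = 1) (hN : IsPGroup q N) (hnorm : ∀ n ∈ N, t * n * t⁻¹ ∈ N)
    (hnc : ∃ n ∈ N, t * n ≠ n * t) (hcard : Nat.card W ≤ p * Nat.card (cmap t).ker) :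
    (p = 2 ∧ q = 3) ∨ (p = 3 ∧ q = 2) := by
  by_cases hp2 : p = 2
  · subst hp2
    exact Or.inl ⟨rfl, core_two (Ne.symm hpq) hW N t ht hN hnorm hnc hcard⟩
  · exact Or.inr (core_odd hpq hp2 hW N t ht hN hnorm hnc hcard)

end Cfsg.Agent.Lib.H73Off1
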