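import Mathlib
import Cfsg.Agent.Lib.H73Off1
import Cfsg.Agent.Lib.CoprimeHyper

/-!
# Offending elementary abelian groups of automorphisms, acting on a `q`-group.
-/

set_option autoImplicit false

open scoped commutatorElement
open Cfsg

namespace Cfsg.Agent.Lib.H73Off2

open Cfsg.Agent.Lib.H73Off1

variable {W : Type*} [CommGroup W] {p q : ℕ} [hp : Fact p.Prime] [hq : Fact q.Prime]

/-- Fixed points of a subgroup of automorphisms. -/
def fixB (B : Subgroup (MulAut W)) : Subgroup W where
  carrier := {w | ∀ b ∈ B, b w = w}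
  mul_mem' := by
    intro x y hx hy b hb
    rw [map_mul, hx b hb, hy b hb]
  one_mem' := by
    intro b _
    exact map_one b
  inv_mem' := by
    intro x hx b hb
    rw [map_inv, hx b hb]

omit hp hq in
theorem mem_fixB {B : Subgroup (MulAut W)} {w : W} : w ∈ fixB B ↔ ∀ b ∈ B, b w = w := Iff.rfl

omit hp hq in
theorem comm_fixB {B : Subgroup (MulAut W)} {f : MulAut W}
    (hf : f ∈ Subgroup.centralizer (B : Set (MulAut W))) {w : W} (hw : w ∈ fixB B) : f w ∈ fixB B := by
  intro b hb
  have h1 : b * f = f * b := Subgroup.mem_centralizer_iff.mp hf b hb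
  rw [← MulAut.mul_apply, h1, MulAut.mul_apply, hw b hb]

/-- Restriction to the fixed points. -/
def resHom (B : Subgroup (MulAut W)) :
    Subgroup.centralizer (B : Set (MulAut W)) →* MulAut (fixB B) where
  toFun f :=
    { toFun := fun w => ⟨f.1 w, comm_fixB f.2 w.2⟩
      invFun := fun w => ⟨f.1⁻¹ w, comm_fixB (Subgroup.inv_mem _ f.2) w.2⟩
      left_inv := by
        intro w
        apply Subtype.ext
        simp
      right_inv := by
        intro w
        apply Subtype.ext
        simp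
      map_mul' := by
        intro x y
        apply Subtype.ext
        simp }
  map_one' := by
    ext w
    rfl
  map_mul' := by
    intro x y
    ext w
    rfl

omit hp hq in
@[simp] theorem resHom_apply (B : Subgroup (MulAut W)) (f : Subgroup.centralizer (B : Set (MulAut W)))
    (w : fixB B) : ((resHom B f w : fixB B) : W) = f.1 w := rfl

/-- The norm map. -/
def nrm (y : MulAut W) (n : ℕ) : W →* W :=
  MonoidHom.mk' (fun w => ∏ i ∈ Finset.range n, (y ^ i) w) (by
    intro a b
    simp only [map_mul, Finset.prod_mul_distrib])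

omit hp hq in
@[simp] theorem nrm_apply (y : MulAut W) (n : ℕ) (w : W) :
    nrm y n w = ∏ i ∈ Finset.range n, (y ^ i) w := rfl

omit hp hq in
theorem nrm_div (y : MulAut W) (n : ℕ) (v : W) : nrm y n (y v / v) = (y ^ n) v / v := by
  rw [nrm_apply]
  have h1 : ∀ i, (y ^ i) (y v / v) = (y ^ (i + 1)) v / (y ^ i) v := by
    intro i
    rw [map_div, pow_succ, MulAut.mul_apply]
  simp only [h1]
  rw [Finset.prod_range_div (fun i => (y ^ i) v)]
  simp

/-- Abelian `P × Q`: a `p`-group `B` of automorphisms of an elementary abelian `p`-group `W`, and an automorphism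
`y` of `q`-power order commuting with `B`. If `y` fixes the fixed points of `B`, then `y = 1`. -/
theorem eq_one_of_fix [Finite W] (hpq : p ≠ q) (hW : ∀ w : W, w ^ p = 1) (B : Subgroup (MulAut W))
    (hB : IsPGroup p B) (y : MulAut W) (k : ℕ) (hy : y ^ q ^ k = 1)
    (hcomm : y ∈ Subgroup.centralizer (B : Set (MulAut W)))
    (hfix : ∀ w ∈ fixB B, y w = w) : y = 1 := by
  classical
  set n := q ^ k with hn
  have hnp : n.Coprime p := Nat.Coprime.pow_left _ ((Nat.coprime_primes hq.out hp.out).mpr (Ne.symm hpq))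
  set K : Subgroup W := (nrm y n).ker with hK
  have hKbot : K = ⊥ := by
    by_contra hne
    -- `B` acts on `K`.
    have hinv : ∀ b ∈ B, ∀ w ∈ K, b w ∈ K := by
      intro b hb w hw
      rw [hK, MonoidHom.mem_ker, nrm_apply] at hw ⊢
      have h1 : ∀ i, (y ^ i) (b w) = b ((y ^ i) w) := by
        intro i
        have hc : y ^ i ∈ Subgroup.centralizer (B : Set (MulAut W)) := Subgroup.pow_mem _ hcomm i
        have h2 : b * y ^ i = y ^ i * b := Subgroup.mem_centralizer_iff.mp hc b hb
        rw [← MulAut.mul_apply, ← MulAut.mul_apply, h2]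
      simp only [h1]
      rw [← map_prod, hw, map_one]
    letI act : MulAction B K :=
      { smul := fun b w => ⟨b.1 w.1, hinv b.1 b.2 w.1 w.2⟩
        one_smul := fun w => Subtype.ext (by
          show ((1 : B) : MulAut W) w.1 = w.1
          rfl)
        mul_smul := fun a b w => Subtype.ext (by
          show ((a * b : B) : MulAut W) w.1 = a.1 (b.1 w.1)
          rfl) }
    have hKp : IsPGroup p K := by
      rintro ⟨w, hw⟩
      refine ⟨1, Subtype.ext ?_⟩
      simpa using hW w
    have hcK : p ∣ Nat.card K := by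
      haveI : Nontrivial K := by
        rw [Subgroup.nontrivial_iff_ne_bot]
        exact hne
      obtain ⟨m, hm⟩ := IsPGroup.iff_card.mp hKp
      have hm0 : m ≠ 0 := by
        rintro rfl
        rw [pow_zero] at hm
        exact (Finite.one_lt_card (α := K)).ne' hm
      rw [hm]
      exact dvd_pow_self p hm0
    have h1fix : (1 : K) ∈ MulAction.fixedPoints B K := by
      intro b
      apply Subtype.ext
      exact map_one b.1
    obtain ⟨u, hu, hne1⟩ := hB.exists_fixed_point_of_prime_dvd_card_of_fixed_point K hcK h1fix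
    have huB : (u : W) ∈ fixB B := by
      intro b hb
      have := congrArg Subtype.val (hu ⟨b, hb⟩)
      exact this
    have hyu : y (u : W) = u := hfix _ huB
    have hpowu : ∀ i : ℕ, (y ^ i) (u : W) = u := by
      intro i
      induction i with
      | zero => simp
      | succ i ih => rw [pow_succ, MulAut.mul_apply, hyu, ih]
    have hun : (u : W) ^ n = 1 := by
      have h2 : nrm y n (u : W) = 1 := u.2
      rw [nrm_apply] at h2
      simp only [hpowu] at h2
      simpa using h2
    have hup : (u : W) ^ p = 1 := hW u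
    have hu1 : (u : W) = 1 := by
      have h3 : orderOf (u : W) ∣ n := orderOf_dvd_of_pow_eq_one hun
      have h4 : orderOf (u : W) ∣ p := orderOf_dvd_of_pow_eq_one hup
      exact orderOf_eq_one_iff.mp (Nat.eq_one_of_dvd_coprimes hnp h3 h4)
    exact hne1 (Subtype.ext hu1.symm)
  ext v
  have h2 : nrm y n (y v / v) = 1 := by
    rw [nrm_div, hy]
    simp
  have h3 : y v / v ∈ K := h2
  rw [hKbot, Subgroup.mem_bot, div_eq_one] at h3
  exact h3

/-- **Offending elementary abelian groups**. -/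
theorem off_core [Finite W] (hpq : p ≠ q) (h23 : ¬ ((p = 2 ∧ q = 3) ∨ (p = 3 ∧ q = 2)))
    (hW : ∀ w : W, w ^ p = 1) (E Q : Subgroup (MulAut W))
    (hEc : IsMulCommutative E) (hEp : ∀ e ∈ E, e ^ p = 1) (hQ : IsPGroup q Q)
    (hEQ : E ≤ Subgroup.normalizer (Q : Set (MulAut W)))
    (hoff : ∀ B : Subgroup (MulAut W), B ≤ E → B.relIndex E ≤ p → ∀ τ ∈ E, τ ∉ B →
      Nat.card (fixB B) ≤ p * Nat.card ↥(fixB B ⊓ fixB (Subgroup.zpowers τ))) :
    E ≤ Subgroup.centralizer (Q : Set (MulAut W)) := by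
  classical
  have hQp : ¬ p ∣ Nat.card Q := by
    intro h
    obtain ⟨m, hm⟩ := IsPGroup.iff_card.mp hQ
    rw [hm] at h
    exact hpq ((Nat.prime_dvd_prime_iff_eq hp.out hq.out).mp (hp.out.dvd_of_dvd_pow h))
  have hEcomm : ∀ a ∈ E, ∀ b ∈ E, a * b = b * a := by
    intro a ha b hb
    have := hEc.is_comm.comm ⟨a, ha⟩ ⟨b, hb⟩
    exact congrArg Subtype.val this
  have hEpg : IsPGroup p E := by
    rintro ⟨a, ha⟩
    exact ⟨1, Subtype.ext (by simpa using hEp a ha)⟩
  have hgen := Cfsg.Agent.Lib.CoprimeHyper.eq_iSup_inf_centralizer E Q hEc hEp hQp hEQ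
  by_contra hcon
  -- a hyperplane
  have hex : ∃ B : Subgroup (MulAut W), B ≤ E ∧ B.relIndex E ≤ p ∧
      ¬ (Q ⊓ Subgroup.centralizer (B : Set (MulAut W)) ≤ Subgroup.centralizer (E : Set (MulAut W))) := by
    by_contra hno
    push Not at hno
    apply hcon
    rw [Subgroup.le_centralizer_iff, hgen]
    exact iSup_le fun B => hno B.1 B.2.1 B.2.2
  obtain ⟨B, hBE, hBi, hBn⟩ := hex
  rw [SetLike.not_le_iff_exists] at hBn
  obtain ⟨y, hy, hyn⟩ := hBn
  rw [Subgroup.mem_centralizer_iff] at hyn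
  push Not at hyn
  obtain ⟨τ, hτ, hτy⟩ := hyn
  have hyQ : y ∈ Q := hy.1
  have hyB : y ∈ Subgroup.centralizer (B : Set (MulAut W)) := hy.2
  have hτB : τ ∉ B := fun h => hτy (Subgroup.mem_centralizer_iff.mp hyB τ h)
  have hBpg : IsPGroup p B := hEpg.to_le hBE
  -- `τ` in the centralizer of `B`
  have hτC : τ ∈ Subgroup.centralizer (B : Set (MulAut W)) := by
    rw [Subgroup.mem_centralizer_iff]
    intro b hb
    exact hEcomm b (hBE hb) τ hτ
  set Q₀ : Subgroup (MulAut W) := Q ⊓ Subgroup.centralizer (B : Set (MulAut W)) with hQ₀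
  set CB := Subgroup.centralizer (B : Set (MulAut W)) with hCB
  set ρ := resHom B with hρ
  set N : Subgroup (MulAut (fixB B)) := (Q₀.subgroupOf CB).map ρ with hN
  set τ' : CB := ⟨τ, hτC⟩ with hτ'
  set y' : CB := ⟨y, hyB⟩ with hy'
  have hy'N : y' ∈ Q₀.subgroupOf CB := by
    rw [Subgroup.mem_subgroupOf]
    exact hy
  have hNq : IsPGroup q N := by
    apply IsPGroup.map
    rintro ⟨x, hx⟩
    rw [Subgroup.mem_subgroupOf] at hx
    obtain ⟨k, hk⟩ := hQ ⟨x.1, hx.1⟩
    refine ⟨k, Subtype.ext (Subtype.ext ?_)⟩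
    have := congrArg Subtype.val hk
    simpa using this
  have hWB : ∀ w : fixB B, w ^ p = 1 := fun w => Subtype.ext (by simpa using hW w)
  have htp : (ρ τ') ^ p = 1 := by
    rw [← map_pow]
    have h1 : τ' ^ p = 1 := Subtype.ext (by simpa [hτ'] using hEp τ hτ)
    rw [h1, map_one]
  have hconj : ∀ x ∈ Q₀, τ * x * τ⁻¹ ∈ Q₀ := by
    intro x hx
    refine ⟨(Subgroup.mem_normalizer_iff.mp (hEQ hτ) x).mp hx.1, ?_⟩
    exact CB.mul_mem (CB.mul_mem hτC hx.2) (CB.inv_mem hτC)
  have hnorm : ∀ n ∈ N, ρ τ' * n * (ρ τ')⁻¹ ∈ N := by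
    rintro _ ⟨x, hx, rfl⟩
    refine ⟨τ' * x * τ'⁻¹, ?_, by simp⟩
    have hx' : x ∈ Q₀.subgroupOf CB := hx
    show _ ∈ Q₀.subgroupOf CB
    rw [Subgroup.mem_subgroupOf] at hx' ⊢
    exact hconj _ hx'
  have hnc : ∃ n ∈ N, ρ τ' * n ≠ n * ρ τ' := by
    refine ⟨ρ y', ⟨y', hy'N, rfl⟩, ?_⟩
    intro heq
    apply hτy
    -- the commutator is trivial on the fixed points
    set z : MulAut W := τ * y * τ⁻¹ * y⁻¹ with hz
    have hzQ : z ∈ Q₀ := Q₀.mul_mem (hconj y hy) (Q₀.inv_mem hy)
    obtain ⟨k, hk⟩ := hQ ⟨z, hzQ.1⟩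
    have hzk : z ^ q ^ k = 1 := by
      have := congrArg Subtype.val hk
      simpa using this
    have hfix : ∀ w ∈ fixB B, z w = w := by
      intro w hw
      have hcv : ∀ v ∈ fixB B, τ (y v) = y (τ v) := by
        intro v hv
        have h1 := congrArg Subtype.val (DFunLike.congr_fun heq ⟨v, hv⟩)
        exact h1
      have hv : τ⁻¹ (y⁻¹ w) ∈ fixB B := comm_fixB (CB.inv_mem hτC) (comm_fixB (CB.inv_mem hyB) hw)
      have h2 := hcv _ hv
      rw [hz]
      simp only [MulAut.mul_apply]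
      rw [h2]
      simp
    have hz1 := eq_one_of_fix hpq hW B hBpg z k hzk hzQ.2 hfix
    rw [hz, mul_inv_eq_one, mul_inv_eq_iff_eq_mul] at hz1
    exact hz1
  have hcard : Nat.card (fixB B) ≤ p * Nat.card (cmap (ρ τ')).ker := by
    have h1 := hoff B hBE hBi τ hτ hτB
    refine h1.trans (Nat.mul_le_mul_left _ ?_)
    refine Nat.card_le_card_of_injective (fun x => ⟨⟨x.1, x.2.1⟩, ?_⟩) ?_
    · rw [mem_ker_cmap]
      apply Subtype.ext
      exact x.2.2 τ (Subgroup.mem_zpowers τ)
    · intro a b hab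
      apply Subtype.ext
      have := congrArg Subtype.val (congrArg Subtype.val hab)
      exact this
  exact h23 (core_lemma hpq hWB N (ρ τ') htp hNq hnorm hnc hcard)

end Cfsg.Agent.Lib.H73Off2
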