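import Mathlib
import Cfsg.Agent.Lib.H73Off2
import Cfsg.Agent.Lib.PLocalTools

/-!
# Elementary abelian subgroups of largest order acting on a `q`-group of automorphisms of a normal elementary
abelian subgroup.
-/

set_option autoImplicit false

open scoped commutatorElement
open Cfsg

namespace Cfsg.Agent.Lib.H73Off3

open Cfsg.Agent.Lib.H73Off1 Cfsg.Agent.Lib.H73Off2 Cfsg.Agent.Lib.PLocalTools Cfsg.Agent.Lib.ThompsonJ

variable {X : Type*} [Group X] [Finite X] {W : Type*} [CommGroup W] [Finite W] {p q : ℕ} [hp : Fact p.Prime]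
  [hq : Fact q.Prime]

theorem off_lemma (hpq : p ≠ q) (h23 : ¬ ((p = 2 ∧ q = 3) ∨ (p = 3 ∧ q = 2))) (hW : ∀ w : W, w ^ p = 1)
    (ι : W →* X) (hι : Function.Injective ι) (ρ : X →* MulAut W)
    (hρ : ∀ x w, ι (ρ x w) = x * ι w * x⁻¹)
    (T : Subgroup X) (hιT : ι.range ≤ T) {A : Subgroup X} (hA : A ∈ maxEAIn p T)
    (Q : Subgroup (MulAut W)) (hQ : IsPGroup q Q)
    (hAQ : A.map ρ ≤ Subgroup.normalizer (Q : Set (MulAut W))) :
    A.map ρ ≤ Subgroup.centralizer (Q : Set (MulAut W)) := by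
  classical
  have hAea : IsElementaryAbelian p A := hA.2.1
  have hEea : IsElementaryAbelian p (A.map ρ) := ea_map hAea ρ
  refine off_core hpq h23 hW (A.map ρ) Q hEea.1 hEea.2 hQ hAQ ?_
  intro B hBE hBi τ hτ hτB
  obtain ⟨t₀, ht₀, rfl⟩ := hτ
  set A₀ : Subgroup X := A ⊓ B.comap ρ with hA₀
  set F : Subgroup X := (fixB B).map ι with hF
  have hA₀T : A₀ ≤ T := inf_le_left.trans hA.1
  have hFT : F ≤ T := by
    rintro _ ⟨w, _, rfl⟩
    exact hιT ⟨w, rfl⟩
  have hFea : IsElementaryAbelian p F := by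
    apply ea_map
    apply isElementaryAbelian_of_comm
    · intro x _ y _
      exact mul_comm x y
    · intro x _
      exact hW x
  have hA₀ea : IsElementaryAbelian p A₀ := ea_mono hAea inf_le_left
  have hcomm : ∀ a ∈ A₀, ∀ f ∈ F, a * f = f * a := by
    rintro a ha _ ⟨w, hw, rfl⟩
    have h1 : ρ a w = w := hw (ρ a) ha.2
    have h2 := hρ a w
    rw [h1] at h2
    rw [eq_mul_inv_iff_mul_eq] at h2
    exact h2.symm
  have hsupea := ea_sup hA₀ea hFea hcomm
  have hmax : Nat.card ↥(A₀ ⊔ F) ≤ Nat.card A :=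
    hA.2.2 _ (sup_le hA₀T hFT) hsupea
  have hnorm : A₀ ≤ Subgroup.normalizer (F : Set X) := by
    intro a ha
    rw [Subgroup.mem_normalizer_iff]
    intro f
    have hc : ∀ f ∈ F, a * f * a⁻¹ = f := by
      intro f hf
      rw [hcomm a ha f hf]
      group
    constructor
    · intro hf
      rw [hc f hf]
      exact hf
    · intro hf
      have h2 := hc _ hf
      have h3 : f = a * f * a⁻¹ := by
        have h4 : a * (a * f * a⁻¹) * a⁻¹ = a * f * a⁻¹ := h2
        have h5 : a * (a * f * a⁻¹) * a⁻¹ = a * (a * f * a⁻¹ * a⁻¹) := by group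
        rw [h5] at h4
        have h6 : a * f * a⁻¹ * a⁻¹ = f * a⁻¹ := mul_left_cancel (a := a) (by rw [h4]; group)
        exact (mul_right_cancel h6).symm
      rw [h3]
      exact hf
  have e1 := Cfsg.Agent.Lib.Replacement.card_sup_mul_card_inf A₀ F hnorm
  have hcardF : Nat.card F = Nat.card (fixB B) := Subgroup.card_map_of_injective hι
  have hrel : A₀.relIndex A = B.relIndex (A.map ρ) := by
    rw [hA₀, Subgroup.inf_relIndex_left, Subgroup.relIndex_comap]
  have hcardA : Nat.card A₀ * A₀.relIndex A = Nat.card A := by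
    have := Subgroup.relIndex_mul_relIndex ⊥ A₀ A bot_le inf_le_left
    rwa [Subgroup.relIndex_bot_left, Subgroup.relIndex_bot_left] at this
  have hsub : A₀ ⊓ F ≤ (fixB B ⊓ fixB (Subgroup.zpowers (ρ t₀))).map ι := by
    rintro x ⟨hx1, w, hw, rfl⟩
    refine ⟨w, ⟨hw, ?_⟩, rfl⟩
    have h1 : ρ t₀ w = w := by
      apply hι
      rw [hρ]
      have h2 : t₀ * ι w = ι w * t₀ := ea_comm hAea ht₀ hx1.1
      rw [h2]
      group
    rintro _ ⟨k, rfl⟩
    have h2 : Subgroup.zpowers (ρ t₀) ≤ MulAction.stabilizer (MulAut W) w := by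
      rw [Subgroup.zpowers_le, MulAction.mem_stabilizer_iff]
      exact h1
    have h3 := h2 (Subgroup.zpow_mem_zpowers (ρ t₀) k)
    rw [MulAction.mem_stabilizer_iff] at h3
    exact h3
  have hi : Nat.card ↥(A₀ ⊓ F) ≤ Nat.card ↥(fixB B ⊓ fixB (Subgroup.zpowers (ρ t₀))) := by
    have := Subgroup.card_le_of_le hsub
    rwa [Subgroup.card_map_of_injective hι] at this
  rw [← hcardF]
  have hpos : 0 < Nat.card A₀ := Nat.card_pos
  rw [hrel] at hcardA
  have h5 : Nat.card A₀ * Nat.card F ≤ Nat.card A₀ * (B.relIndex (A.map ρ) * Nat.card ↥(A₀ ⊓ F)) := by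
    calc Nat.card A₀ * Nat.card F = Nat.card ↥(A₀ ⊔ F) * Nat.card ↥(A₀ ⊓ F) := e1.symm
      _ ≤ Nat.card A * Nat.card ↥(A₀ ⊓ F) := Nat.mul_le_mul_right _ hmax
      _ = Nat.card A₀ * (B.relIndex (A.map ρ) * Nat.card ↥(A₀ ⊓ F)) := by
        rw [← hcardA, mul_assoc]
  have h6 := Nat.le_of_mul_le_mul_left h5 hpos
  exact h6.trans (Nat.mul_le_mul hBi hi)

end Cfsg.Agent.Lib.H73Off3
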