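import Mathlib
import Cfsg.Agent.Lib.H73Off3

/-!
# Characteristic subgroups of a Sylow subgroup with a nontrivial `q`-action: transport lemmas.
-/

set_option autoImplicit false

open scoped commutatorElement
open Cfsg

namespace Cfsg.Agent.Lib.H73Off4

open Cfsg.Agent.Lib.PCore Cfsg.Agent.Lib.PSolv

/-- Preimages of characteristic subgroups under surjections with characteristic kernel. -/
theorem char_comap {A B : Type*} [Group A] [Group B] (f : A →* B) (hf : Function.Surjective f)
    (hker : f.ker.Characteristic) (K : Subgroup B) (hK : K.Characteristic) :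
    (K.comap f).Characteristic := by
  have hkm : ∀ (φ : A ≃* A) (a : A), f a = 1 → f (φ a) = 1 := by
    intro φ a ha
    have h1 := (Subgroup.characteristic_iff_comap_eq.mp hker φ.symm)
    have h2 : a ∈ f.ker.comap φ.symm.toMonoidHom := by
      rw [h1]
      exact ha
    have h3 : φ.symm.toMonoidHom a ∈ f.ker := h2
    have h4 : a ∈ f.ker := ha
    have h5 := (Subgroup.characteristic_iff_comap_eq.mp hker φ)
    have h6 : a ∈ f.ker.comap φ.toMonoidHom := by
      rw [h5]
      exact h4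
    exact h6
  rw [Subgroup.characteristic_iff_comap_eq]
  intro φ
  let g₁ : B →* B := (MonoidHom.liftOfSurjective f hf) ⟨f.comp φ.toMonoidHom, fun a ha => hkm φ a ha⟩
  let g₂ : B →* B := (MonoidHom.liftOfSurjective f hf) ⟨f.comp φ.symm.toMonoidHom, fun a ha => hkm φ.symm a ha⟩
  have hg₁ : ∀ a, g₁ (f a) = f (φ a) := fun a =>
    MonoidHom.liftOfRightInverse_comp_apply f _ _ _ a
  have hg₂ : ∀ a, g₂ (f a) = f (φ.symm a) := fun a =>
    MonoidHom.liftOfRightInverse_comp_apply f _ _ _ a
  let ψ : B ≃* B := MonoidHom.toMulEquiv g₁ g₂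
    (by
      ext b
      obtain ⟨a, rfl⟩ := hf b
      simp [hg₁, hg₂])
    (by
      ext b
      obtain ⟨a, rfl⟩ := hf b
      simp [hg₁, hg₂])
  have hψ : ∀ a, ψ (f a) = f (φ a) := hg₁
  have hKψ := Subgroup.characteristic_iff_comap_eq.mp hK ψ
  ext x
  simp only [Subgroup.mem_comap]
  show f (φ x) ∈ K ↔ f x ∈ K
  rw [← hψ]
  conv_rhs => rw [← hKψ]
  rfl

/-- The conclusion of the local theorem: some characteristic subgroup of `T` admits a nontrivial `q`-element. -/
def Concl (p q : ℕ) {X : Type*} [Group X] (T : Subgroup X) : Prop :=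
  ∃ K : Subgroup T, K.Characteristic ∧ ∃ y : X, (∃ n : ℕ, y ^ q ^ n = 1) ∧
    y ∈ Subgroup.normalizer ((K.map T.subtype : Subgroup X) : Set X) ∧
    y ∉ Subgroup.centralizer ((K.map T.subtype : Subgroup X) : Set X)

variable {X : Type*} [Group X] {p q : ℕ}

/-- Transport from a subgroup containing `T`. -/
theorem concl_of_le {T Y : Subgroup X} (hTY : T ≤ Y) (h : Concl p q (T.subgroupOf Y)) : Concl p q T := by
  obtain ⟨K', hK', y', ⟨n, hn⟩, hy1, hy2⟩ := h
  set e : (T.subgroupOf Y) ≃* T := Subgroup.subgroupOfEquivOfLe hTY with he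
  refine ⟨K'.comap e.symm.toMonoidHom, ?_, (y' : X), ⟨n, ?_⟩, ?_, ?_⟩
  · refine char_comap e.symm.toMonoidHom e.symm.surjective ?_ K' hK'
    have : e.symm.toMonoidHom.ker = ⊥ := by
      rw [MonoidHom.ker_eq_bot_iff]
      exact e.symm.injective
    rw [this]
    infer_instance
  · have := congrArg Subtype.val hn
    simpa using this
  all_goals
    have hmap : ∀ x : X, x ∈ (K'.comap e.symm.toMonoidHom).map T.subtype ↔
        ∃ z : Y, z ∈ K'.map (T.subgroupOf Y).subtype ∧ (z : X) = x := by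
      intro x
      constructor
      · rintro ⟨t, ht, rfl⟩
        refine ⟨⟨t, hTY t.2⟩, ⟨e.symm t, ht, rfl⟩, rfl⟩
      · rintro ⟨z, ⟨k, hk, rfl⟩, rfl⟩
        refine ⟨e k, ?_, rfl⟩
        show e.symm (e k) ∈ K'
        simpa using hk
  · rw [Subgroup.mem_normalizer_iff] at hy1 ⊢
    intro x
    rw [hmap, hmap]
    constructor
    · rintro ⟨z, hz, rfl⟩
      exact ⟨y' * z * y'⁻¹, (hy1 z).mp hz, by simp⟩
    · rintro ⟨z, hz, hzx⟩
      have hxY : x ∈ Y := by
        have h1 : (y' : X) * x * (y' : X)⁻¹ ∈ Y := by rw [← hzx]; exact z.2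
        have h2 := Y.mul_mem (Y.mul_mem (Y.inv_mem y'.2) h1) y'.2
        convert h2 using 1
        group
      refine ⟨⟨x, hxY⟩, (hy1 ⟨x, hxY⟩).mpr ?_, rfl⟩
      convert hz using 1
      apply Subtype.ext
      simpa using hzx.symm
  · intro hc
    apply hy2
    rw [Subgroup.mem_centralizer_iff] at hc ⊢
    intro z hz
    apply Subtype.ext
    have h1 := hc (z : X) ((hmap _).mpr ⟨z, hz, rfl⟩)
    simpa using h1

section Lift

variable [Fact q.Prime]

/-- A `q`-element of the image lifts to a `q`-element. -/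
theorem exists_q_lift {A B : Type*} [Group A] [Group B] [Finite A] (f : A →* B) (g : A) {n : ℕ}
    (hg : f g ^ q ^ n = 1) : ∃ y : A, (∃ m : ℕ, y ^ q ^ m = 1) ∧ f y = f g := by
  have hq : q.Prime := Fact.out
  by_cases hn : f g = 1
  · exact ⟨1, ⟨0, by simp⟩, by rw [map_one, hn]⟩
  have hn0 : n ≠ 0 := by
    rintro rfl
    apply hn
    simpa using hg
  have ho : orderOf g ≠ 0 := (orderOf_pos g).ne'
  obtain ⟨a, m, hm, hgm⟩ := Nat.exists_eq_pow_mul_and_not_dvd ho q hq.ne_one
  have hcop : m.Coprime (q ^ n) := Nat.Coprime.pow_right _ ((Nat.Prime.coprime_iff_not_dvd hq).mpr hm).symm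
  have h1 : 1 < q ^ n := Nat.one_lt_pow hn0 hq.one_lt
  obtain ⟨k, -, hk⟩ := Nat.exists_mul_mod_eq_one_of_coprime hcop h1
  refine ⟨g ^ (m * k), ⟨a, ?_⟩, ?_⟩
  · rw [← pow_mul]
    have : m * k * q ^ a = orderOf g * k := by rw [hgm]; ring
    rw [this, pow_mul, pow_orderOf_eq_one, one_pow]
  · rw [map_pow]
    have h2 : f g ^ (m * k) = f g ^ ((m * k) % q ^ n) := by
      rw [← pow_mod_orderOf]
      have h3 : orderOf (f g) ∣ q ^ n := orderOf_dvd_of_pow_eq_one hg
      conv_rhs => rw [← pow_mod_orderOf]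
      rw [Nat.mod_mod_of_dvd _ h3]
    rw [h2, hk, pow_one]

end Lift

/-- Transport from the quotient by a characteristic subgroup of `T`. -/
theorem concl_of_quot [Finite X] [Fact q.Prime] {T Z : Subgroup X} [hZ : Z.Normal] (hZT : Z ≤ T)
    (hZc : (Z.subgroupOf T).Characteristic) (h : Concl p q (T.map (QuotientGroup.mk' Z))) :
    Concl p q T := by
  set π := QuotientGroup.mk' Z with hπ
  obtain ⟨K', hK', y', ⟨n, hn⟩, hy1, hy2⟩ := h
  have hπs : Function.Surjective π := QuotientGroup.mk'_surjective Z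
  set f : T →* T.map π := π.subgroupMap T with hf
  have hfs : Function.Surjective f := π.subgroupMap_surjective T
  have hker : f.ker = Z.subgroupOf T := by
    ext x
    rw [MonoidHom.mem_ker, Subgroup.mem_subgroupOf]
    constructor
    · intro hx
      have h1 : π x = 1 := congrArg Subtype.val hx
      exact (QuotientGroup.eq_one_iff _).mp h1
    · intro hx
      apply Subtype.ext
      exact (QuotientGroup.eq_one_iff _).mpr hx
  have hchar : (K'.comap f).Characteristic := by
    refine char_comap f hfs ?_ K' hK'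
    rw [hker]
    exact hZc
  obtain ⟨g, hg⟩ := hπs y'
  obtain ⟨y, hyq, hy⟩ := exists_q_lift (q := q) π g (n := n) (by rw [hg]; exact hn)
  rw [hg] at hy
  -- description of the preimage
  have hmem : ∀ x : X, x ∈ (K'.comap f).map T.subtype ↔ π x ∈ K'.map (T.map π).subtype := by
    intro x
    constructor
    · rintro ⟨t, ht, rfl⟩
      exact ⟨f t, ht, rfl⟩
    · rintro ⟨⟨_, t, ht, rfl⟩, hk, hx⟩
      have hx' : π t = π x := hx
      have h1 : t⁻¹ * x ∈ Z := by
        have := QuotientGroup.eq.mp hx'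
        exact this
      have hxT : x ∈ T := by
        have h2 := T.mul_mem ht (hZT h1)
        simpa using h2
      refine ⟨⟨x, hxT⟩, ?_, rfl⟩
      show f ⟨x, hxT⟩ ∈ K'
      have h3 : f ⟨x, hxT⟩ = ⟨π t, t, ht, rfl⟩ := Subtype.ext hx'.symm
      rw [h3]
      exact hk
  refine ⟨K'.comap f, hchar, y, hyq, ?_, ?_⟩
  · rw [Subgroup.mem_normalizer_iff] at hy1 ⊢
    intro x
    rw [hmem, hmem, map_mul, map_mul, map_inv, hy]
    exact hy1 _
  · intro hc
    apply hy2
    rw [Subgroup.mem_centralizer_iff] at hc ⊢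
    intro z hz
    obtain ⟨x, rfl⟩ := hπs z
    have h1 := hc x ((hmem x).mpr hz)
    rw [← hy, ← map_mul, ← map_mul, h1]

/-- The elements of order dividing `p` in the centre. -/
def omZ (p : ℕ) (P : Type*) [Group P] : Subgroup P where
  carrier := {x | x ∈ Subgroup.center P ∧ x ^ p = 1}
  mul_mem' := by
    rintro a b ⟨ha, hap⟩ ⟨hb, hbp⟩
    refine ⟨Subgroup.mul_mem _ ha hb, ?_⟩
    have hc : Commute a b := (Subgroup.mem_center_iff.mp ha b).symm
    rw [hc.mul_pow, hap, hbp, one_mul]
  one_mem' := ⟨Subgroup.one_mem _, one_pow _⟩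
  inv_mem' := by
    rintro a ⟨ha, hap⟩
    exact ⟨Subgroup.inv_mem _ ha, by rw [inv_pow, hap, inv_one]⟩

theorem omZ_characteristic (p : ℕ) (P : Type*) [Group P] : (omZ p P).Characteristic := by
  rw [Subgroup.characteristic_iff_comap_eq]
  intro φ
  have key : ∀ (ψ : P ≃* P) (x : P), x ∈ omZ p P → ψ x ∈ omZ p P := by
    intro ψ x hx
    refine ⟨?_, by rw [← map_pow, hx.2, map_one]⟩
    rw [Subgroup.mem_center_iff]
    intro g
    obtain ⟨g, rfl⟩ := ψ.surjective g
    rw [← map_mul, ← map_mul, Subgroup.mem_center_iff.mp hx.1 g]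
  ext x
  constructor
  · intro hx
    have := key φ.symm _ hx
    simpa using this
  · exact key φ x

theorem omZ_ne_bot [Finite X] [Fact p.Prime] (hp : IsPGroup p X) [Nontrivial X] : omZ p X ≠ ⊥ := by
  haveI := hp.center_nontrivial
  have hd : p ∣ Nat.card (Subgroup.center X) := by
    obtain ⟨k, hk⟩ := IsPGroup.iff_card.mp (hp.to_subgroup (Subgroup.center X))
    have hk0 : k ≠ 0 := by
      rintro rfl
      rw [pow_zero] at hk
      exact (Finite.one_lt_card (α := Subgroup.center X)).ne' hk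
    rw [hk]
    exact dvd_pow_self p hk0
  obtain ⟨z, hz⟩ := exists_prime_orderOf_dvd_card' p hd
  intro hbot
  have hmem : (z : X) ∈ omZ p X := by
    refine ⟨z.2, ?_⟩
    have := congrArg Subtype.val (pow_orderOf_eq_one z)
    rw [hz] at this
    simpa using this
  rw [hbot, Subgroup.mem_bot] at hmem
  have h1 : z = 1 := Subtype.ext hmem
  rw [h1, orderOf_one] at hz
  exact (Fact.out : p.Prime).one_lt.ne hz

end Cfsg.Agent.Lib.H73Off4
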