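import Mathlib
import Cfsg.Agent.Lib.H73Off4

/-!
# The main case: `q` does not divide the order of the centralizer of `V`.
-/

set_option autoImplicit false

open scoped commutatorElement
open Cfsg

namespace Cfsg.Agent.Lib.H73Off5

open Cfsg.Agent.Lib.H73Off3 Cfsg.Agent.Lib.H73Off4 Cfsg.Agent.Lib.PCore Cfsg.Agent.Lib.PSolv
  Cfsg.Agent.Lib.PLocalTools Cfsg.Agent.Lib.ThompsonJ

variable {X : Type*} [Group X] [Finite X] {p q : ℕ} [hp : Fact p.Prime] [hq : Fact q.Prime]

omit hp in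
theorem dvd_of_factor (R M : Subgroup X) [hR : R.Normal] (h : ∀ x, ∃ r ∈ R, ∃ n ∈ M, x = r * n)
    (hqX : q ∣ Nat.card X) : q ∣ Nat.card R ∨ q ∣ Nat.card M := by
  have hsup : M ⊔ R = ⊤ := by
    rw [eq_top_iff]
    intro x _
    obtain ⟨r, hr, n, hn, rfl⟩ := h x
    exact Subgroup.mul_mem _ ((le_sup_right : R ≤ M ⊔ R) hr) ((le_sup_left : M ≤ M ⊔ R) hn)
  have hle : M ≤ Subgroup.normalizer (R : Set X) := by
    rw [Subgroup.normalizer_eq_top_iff.mpr hR]
    exact le_top
  have h1 := Cfsg.Agent.Lib.Replacement.card_sup_mul_card_inf M R hle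
  rw [hsup, Subgroup.card_top] at h1
  have h2 : q ∣ Nat.card M * Nat.card R := by
    rw [← h1]
    exact hqX.mul_right _
  rcases (Fact.out : q.Prime).dvd_mul.mp h2 with h3 | h3
  · exact Or.inr h3
  · exact Or.inl h3

omit hq in
/-- The Frattini step at the bottom of `X / R`. -/
theorem exists_T2 {Γ₁ : Type*} [Group Γ₁] (hsol : IsPSolvable p X) (T : Sylow p X) (f₁ : X →* Γ₁)
    (hf₁ : Function.Surjective f₁) (hO₁ : pPrimeCore p Γ₁ = ⊥) (hne : f₁.ker ≠ ⊤) :
    ∃ T₂ : Subgroup X, T₂ ≤ T ∧ (T : Subgroup X) ≤ Subgroup.normalizer (T₂ : Set X) ∧ ¬ T₂ ≤ f₁.ker ∧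
      ∀ x, ∃ r ∈ f₁.ker, ∃ n ∈ Subgroup.normalizer (T₂ : Set X), x = r * n := by
  haveI : Finite Γ₁ := Finite.of_surjective f₁ hf₁
  have hsol₁ : IsPSolvable p Γ₁ := isPSolvable_of_surjective hsol f₁ hf₁
  set P₁ := pCore p Γ₁ with hP₁
  have hC := centralizer_pCore_le_of_pSolvable hsol₁ hO₁
  have hP₁ne : P₁ ≠ ⊥ := by
    intro hbot
    apply hne
    rw [eq_top_iff]
    intro x _
    have h1 : f₁ x ∈ Subgroup.centralizer (P₁ : Set Γ₁) := by
      rw [Subgroup.mem_centralizer_iff]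
      intro h hh
      have h0 : h ∈ P₁ := hh
      rw [hbot, Subgroup.mem_bot] at h0
      rw [h0, one_mul, mul_one]
    have h2 := hC h1
    rw [← hP₁, hbot, Subgroup.mem_bot] at h2
    exact h2
  set M₃ : Subgroup X := P₁.comap f₁ with hM₃
  haveI hM₃n : M₃.Normal := Subgroup.Normal.comap inferInstance f₁
  obtain ⟨Q, hQ⟩ := Cfsg.Agent.Lib.PResid.exists_sylow_inf_of_normal T M₃
  set T₂ : Subgroup X := (T : Subgroup X) ⊓ M₃ with hT₂
  have hfac : ∀ x ∈ M₃, ∃ r ∈ f₁.ker, ∃ t ∈ T₂, x = r * t := by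
    intro x hx
    have h1 := pCore_le_sylow p (T.mapSurjective hf₁) hx
    rw [Sylow.coe_mapSurjective] at h1
    obtain ⟨t, ht, hxt⟩ := h1
    have htM : t ∈ M₃ := by
      show f₁ t ∈ P₁
      rw [hxt]
      exact hx
    refine ⟨x * t⁻¹, ?_, t, ⟨ht, htM⟩, by group⟩
    rw [MonoidHom.mem_ker, map_mul, map_inv, hxt, mul_inv_cancel]
  refine ⟨T₂, inf_le_left, ?_, ?_, ?_⟩
  · intro t ht
    apply Cfsg.Agent.Lib.Replacement.mem_normalizer_of_forall
    rintro x ⟨hx1, hx2⟩
    exact ⟨T.mul_mem (T.mul_mem ht hx1) (T.inv_mem ht), hM₃n.conj_mem x hx2 t⟩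
  · intro hle
    apply hP₁ne
    rw [eq_bot_iff]
    intro y hy
    obtain ⟨x, rfl⟩ := hf₁ y
    obtain ⟨r, hr, t, ht, rfl⟩ := hfac x hy
    rw [Subgroup.mem_bot]
    rw [map_mul, (MonoidHom.mem_ker).mp hr, (MonoidHom.mem_ker).mp (hle ht), mul_one]
  · intro g
    have htop := Sylow.normalizer_sup_eq_top Q
    have hmem : g ∈ M₃ ⊔ Subgroup.normalizer (((Q : Subgroup M₃).map M₃.subtype : Subgroup X) : Set X) := by
      rw [sup_comm, htop]
      trivial
    rw [← SetLike.mem_coe, Subgroup.normal_mul] at hmem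
    obtain ⟨d, hd, n, hn, rfl⟩ := Set.mem_mul.mp hmem
    obtain ⟨r, hr, t, ht, rfl⟩ := hfac d hd
    rw [hQ] at hn
    refine ⟨r, hr, t * n, ?_, by group⟩
    exact Subgroup.mul_mem _ (Subgroup.le_normalizer ht) hn

variable {W : Type*} [CommGroup W] [Finite W]

/-- **The main case**. -/
theorem case_B (hpq : p ≠ q) (h23 : ¬ ((p = 2 ∧ q = 3) ∨ (p = 3 ∧ q = 2))) (hW : ∀ w : W, w ^ p = 1)
    (ι : W →* X) (hι : Function.Injective ι) (ρ : X →* MulAut W)
    (hρ : ∀ x w, ι (ρ x w) = x * ι w * x⁻¹) (hsol : IsPSolvable p X) (T : Sylow p X)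
    (hιT : ι.range ≤ T) (hUker : pCore p X ≤ ρ.ker) (hqX : q ∣ Nat.card X)
    (hqC : ¬ q ∣ Nat.card ρ.ker)
    (IH1 : ∀ Y : Subgroup X, (T : Subgroup X) ≤ Y → Y ≠ ⊤ → q ∣ Nat.card Y → Concl p q (T : Subgroup X)) :
    Concl p q (T : Subgroup X) := by
  classical
  have hqp : q.Prime := Fact.out
  have hpp : p.Prime := Fact.out
  set C : Subgroup X := ρ.ker with hC
  set Γ : Subgroup (MulAut W) := ρ.range with hΓ
  set f : X →* Γ := ρ.rangeRestrict with hf
  have hfs : Function.Surjective f := ρ.rangeRestrict_surjective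
  have hfk : f.ker = C := MonoidHom.ker_rangeRestrict ρ
  have hfv : ∀ x, ((f x : Γ) : MulAut W) = ρ x := fun x => rfl
  set D : Subgroup Γ := pPrimeCore p Γ with hD
  by_cases hqD : q ∣ Nat.card D
  · -- `q` divides `|O_{p'}(X / C)|`
    set J : Subgroup X := thompsonSubgroupOf p (T : Subgroup X) with hJ
    have hJT : J ≤ T := thompsonOf_le p _
    have hJp : IsPGroup p J := T.isPGroup'.to_le hJT
    set Js : Subgroup Γ := J.map f with hJs
    have hJsp : IsPGroup p Js := hJp.map f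
    have hDp : ¬ p ∣ Nat.card D := not_dvd_card_pPrimeCore p
    have hJD : Js ≤ Subgroup.normalizer (D : Set Γ) := by
      rw [Subgroup.normalizer_eq_top_iff.mpr (inferInstance : D.Normal)]
      exact le_top
    obtain ⟨Q, hQ⟩ := Cfsg.Agent.Lib.CoprimeHyper.exists_invariant_sylow (q := q) Js D hJsp hDp hJD
    set Q₁ : Subgroup Γ := (Q : Subgroup D).map D.subtype with hQ₁
    set Q₂ : Subgroup (MulAut W) := Q₁.map Γ.subtype with hQ₂
    have hQ₂q : IsPGroup q Q₂ := (Q.isPGroup'.map _).map _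
    have hAn : ∀ A ∈ maxEAIn p (T : Subgroup X), A.map ρ ≤ Subgroup.normalizer (Q₂ : Set (MulAut W)) := by
      rintro A hA _ ⟨a, ha, rfl⟩
      apply Cfsg.Agent.Lib.Replacement.mem_normalizer_of_forall
      rintro _ ⟨x₁, hx₁, rfl⟩
      have h1 := hQ (f a) ⟨a, le_thompsonOf hA ha, rfl⟩ x₁ hx₁
      exact ⟨_, h1, rfl⟩
    have hAc := fun A (hA : A ∈ maxEAIn p (T : Subgroup X)) =>
      off_lemma hpq h23 hW ι hι ρ hρ (T : Subgroup X) hιT hA Q₂ hQ₂q (hAn A hA)
    have hJc : J ≤ (Subgroup.centralizer (Q₂ : Set (MulAut W))).comap ρ := by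
      rw [hJ, thompsonOf_eq_sSup]
      refine sSup_le fun A hA => ?_
      rw [← Subgroup.map_le_iff_le_comap]
      exact hAc A hA
    -- a nontrivial element of `Q₂`
    have hQne : (Q : Subgroup D) ≠ ⊥ := Q.ne_bot_of_dvd_card hqD
    obtain ⟨⟨x, hx⟩, hx1⟩ := Subgroup.ne_bot_iff_exists_ne_one.mp hQne
    obtain ⟨y₀, hy₀⟩ := hfs (x : Γ)
    have hy₀Q : ρ y₀ ∈ Q₂ := by
      rw [← hfv, hy₀]
      exact ⟨(x : Γ), ⟨x, hx, rfl⟩, rfl⟩
    have hy₀1 : ρ y₀ ≠ 1 := by
      intro h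
      apply hx1
      apply Subtype.ext
      apply Subtype.ext
      apply Subtype.ext
      have h2 : ((f y₀ : Γ) : MulAut W) = 1 := h
      rw [hy₀] at h2
      exact h2
    obtain ⟨k, hk⟩ := hQ₂q ⟨ρ y₀, hy₀Q⟩
    have hk' : ρ y₀ ^ q ^ k = 1 := by
      have := congrArg Subtype.val hk
      simpa using this
    have hcC : ∀ j ∈ J, y₀ * j * y₀⁻¹ * j⁻¹ ∈ C := by
      intro j hj
      have hc : ρ y₀ * ρ j = ρ j * ρ y₀ := Subgroup.mem_centralizer_iff.mp (hJc hj) (ρ y₀) hy₀Q
      rw [hC, MonoidHom.mem_ker, map_mul, map_mul, map_mul, map_inv, map_inv, hc]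
      group
    set D₁ : Subgroup X := J ⊔ C with hD₁
    have hJD₁ : J ≤ D₁ := le_sup_left
    have hCD₁ : C ≤ D₁ := le_sup_right
    have hCn : C.Normal := MonoidHom.normal_ker ρ
    have hNmem : ∀ g : X, (∀ j ∈ J, g * j * g⁻¹ ∈ D₁) → g ∈ Subgroup.normalizer (D₁ : Set X) := by
      intro g hg
      apply Cfsg.Agent.Lib.Replacement.mem_normalizer_of_forall
      have hle : D₁ ≤ D₁.comap (MulAut.conj g).toMonoidHom := by
        refine sup_le (fun j hj => hg j hj) (fun c hc => ?_)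
        exact hCD₁ (hCn.conj_mem c hc g)
      exact fun y hy => hle hy
    have hy₀N : y₀ ∈ Subgroup.normalizer (D₁ : Set X) := by
      apply hNmem
      intro j hj
      have h1 : y₀ * j * y₀⁻¹ = (y₀ * j * y₀⁻¹ * j⁻¹) * j := by group
      rw [h1]
      exact D₁.mul_mem (hCD₁ (hcC j hj)) (hJD₁ hj)
    have hTJ : (T : Subgroup X) ≤ Subgroup.normalizer (J : Set X) :=
      Subgroup.le_normalizer.trans (normalizer_le_normalizer_thompsonOf p _)
    have hTZ : (T : Subgroup X) ≤ Subgroup.normalizer (D₁ : Set X) := by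
      intro t ht
      apply hNmem
      intro j hj
      exact hJD₁ ((Subgroup.mem_normalizer_iff.mp (hTJ ht) j).mp hj)
    have hqZ : q ∣ Nat.card (Subgroup.normalizer (D₁ : Set X)) := by
      have h1 : orderOf (ρ y₀) ∣ q ^ k := orderOf_dvd_of_pow_eq_one hk'
      obtain ⟨i, _, hi⟩ := (Nat.dvd_prime_pow hqp).mp h1
      have hi0 : i ≠ 0 := by
        rintro rfl
        rw [pow_zero, orderOf_eq_one_iff] at hi
        exact hy₀1 hi
      have h2 : q ∣ orderOf (ρ y₀) := by
        rw [hi]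
        exact dvd_pow_self q hi0
      exact h2.trans ((orderOf_map_dvd ρ y₀).trans (Subgroup.orderOf_dvd_natCard _ hy₀N))
    by_cases hZ : Subgroup.normalizer (D₁ : Set X) = ⊤
    swap
    · exact IH1 _ hTZ hZ hqZ
    haveI hD₁n : D₁.Normal := Subgroup.normalizer_eq_top_iff.mp hZ
    have hfr := fun g => frattini_thompson T D₁ hJD₁ g
    have hqJ : ¬ q ∣ Nat.card J := by
      intro h
      obtain ⟨m, hm⟩ := IsPGroup.iff_card.mp hJp
      rw [hm] at h
      exact hpq ((Nat.prime_dvd_prime_iff_eq hqp hpp).mp (hqp.dvd_of_dvd_pow h)).symm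
    have hqD₁ : ¬ q ∣ Nat.card D₁ := by
      intro h
      have hle : J ≤ Subgroup.normalizer (C : Set X) := by
        rw [Subgroup.normalizer_eq_top_iff.mpr hCn]
        exact le_top
      have h1 := Cfsg.Agent.Lib.Replacement.card_sup_mul_card_inf J C hle
      have h2 : q ∣ Nat.card J * Nat.card C := by
        rw [← h1]
        exact h.mul_right _
      rcases hqp.dvd_mul.mp h2 with h3 | h3
      · exact hqJ h3
      · exact hqC h3
    have hqNJ : q ∣ Nat.card (Subgroup.normalizer (J : Set X)) := by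
      rcases dvd_of_factor D₁ (Subgroup.normalizer (J : Set X)) hfr hqX with h | h
      · exact absurd h hqD₁
      · exact h
    by_cases hNJ : Subgroup.normalizer (J : Set X) = ⊤
    swap
    · exact IH1 _ hTJ hNJ hqNJ
    -- the leaf: `J` is normal
    haveI hJn : J.Normal := Subgroup.normalizer_eq_top_iff.mp hNJ
    have hJU : J ≤ pCore p X := le_pCore hJn hJp
    have hVea : IsElementaryAbelian p ι.range := by
      have h1 : ι.range = (⊤ : Subgroup W).map ι := MonoidHom.range_eq_map ι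
      rw [h1]
      apply ea_map
      apply isElementaryAbelian_of_comm
      · intro x _ y _
        exact mul_comm x y
      · intro x _
        exact hW x
    have hVJ : ι.range ≤ J := by
      obtain ⟨A, hA⟩ := exists_mem_maxEAIn p (T : Subgroup X)
      have hcomm : ∀ v ∈ ι.range, ∀ a ∈ A, v * a = a * v := by
        rintro _ ⟨w, rfl⟩ a ha
        have h1 : a ∈ C := hUker (hJU (le_thompsonOf hA ha))
        have h2 := hρ a w
        rw [(MonoidHom.mem_ker).mp h1] at h2
        have h3 : ι w = a * ι w * a⁻¹ := h2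
        rw [eq_mul_inv_iff_mul_eq] at h3
        exact h3
      have hs := ea_sup hVea hA.2.1 hcomm
      have h1 := hA.2.2 _ (sup_le hιT hA.1) hs
      have h2 : ι.range ⊔ A = A := (Subgroup.eq_of_le_of_card_ge le_sup_right h1).symm
      have h3 : ι.range ≤ A := by
        rw [← h2]
        exact le_sup_left
      exact h3.trans (le_thompsonOf hA)
    obtain ⟨y, hy⟩ := exists_prime_orderOf_dvd_card' q hqX
    refine ⟨thompsonSubgroup p (T : Subgroup X), thompson_characteristic p, y, ⟨1, ?_⟩, ?_, ?_⟩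
    · rw [pow_one, ← hy, pow_orderOf_eq_one]
    · show y ∈ Subgroup.normalizer (J : Set X)
      rw [hNJ]
      trivial
    · intro hc
      have hc' : y ∈ Subgroup.centralizer (J : Set X) := hc
      apply hqC
      have hyC : y ∈ C := by
        rw [hC, MonoidHom.mem_ker]
        ext w
        apply hι
        rw [hρ]
        have h1 : ι w * y = y * ι w := Subgroup.mem_centralizer_iff.mp hc' (ι w) (hVJ ⟨w, rfl⟩)
        rw [← h1]
        simp
      rw [← hy]
      exact Subgroup.orderOf_dvd_natCard C hyC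
  · -- `q` does not divide `|O_{p'}(X / C)|`
    set f₁ : X →* (Γ ⧸ D) := (QuotientGroup.mk' D).comp f with hf₁
    have hf₁s : Function.Surjective f₁ := (QuotientGroup.mk'_surjective D).comp hfs
    have hO₁ : pPrimeCore p (Γ ⧸ D) = ⊥ := pPrimeCore_quotient_pPrimeCore p
    have hR : f₁.ker = D.comap f := by
      ext x
      rw [MonoidHom.mem_ker, Subgroup.mem_comap]
      exact QuotientGroup.eq_one_iff _
    have hcardR : Nat.card f₁.ker = Nat.card D * Nat.card C := by
      rw [hR, card_comap_of_surjective f hfs, hfk]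
    have hqR : ¬ q ∣ Nat.card f₁.ker := by
      rw [hcardR]
      intro h
      rcases hqp.dvd_mul.mp h with h1 | h1
      · exact hqD h1
      · exact hqC h1
    have hne : f₁.ker ≠ ⊤ := by
      intro h
      apply hqR
      rw [h, Subgroup.card_top]
      exact hqX
    obtain ⟨T₂, hT₂T, hTN, hT₂R, hfac⟩ := exists_T2 hsol T f₁ hf₁s hO₁ hne
    haveI hRn : f₁.ker.Normal := MonoidHom.normal_ker f₁
    have hqN : q ∣ Nat.card (Subgroup.normalizer (T₂ : Set X)) := by
      rcases dvd_of_factor f₁.ker (Subgroup.normalizer (T₂ : Set X)) hfac hqX with h | h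
      · exact absurd h hqR
      · exact h
    by_cases hNT : Subgroup.normalizer (T₂ : Set X) = ⊤
    swap
    · exact IH1 _ hTN hNT hqN
    exfalso
    apply hT₂R
    have h1 : T₂ ≤ pCore p X :=
      le_pCore (Subgroup.normalizer_eq_top_iff.mp hNT) (T.isPGroup'.to_le hT₂T)
    intro x hx
    have h2 : x ∈ C := hUker (h1 hx)
    rw [MonoidHom.mem_ker, hf₁, MonoidHom.comp_apply]
    have h3 : f x = 1 := by
      rw [← hfk] at h2
      exact h2
    rw [h3, map_one]

end Cfsg.Agent.Lib.H73Off5
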