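import Mathlib
import Cfsg.Agent.Lib.H73Off5
import Cfsg.Agent.Lib.QuadConj

/-!
# The local theorem: `q`-elements acting on characteristic subgroups of a Sylow `p`-subgroup of a `p`-solvable group.
-/

set_option autoImplicit false

open scoped commutatorElement
open Cfsg

namespace Cfsg.Agent.Lib.H73Off6

open Cfsg.Agent.Lib.H73Off5 Cfsg.Agent.Lib.H73Off4 Cfsg.Agent.Lib.PCore Cfsg.Agent.Lib.PSolv
  Cfsg.Agent.Lib.PLocalTools Cfsg.Agent.Lib.ThompsonJ Cfsg.Agent.Lib.QuadConj

universe u

variable {X : Type u} [Group X] [Finite X] {p q : ℕ} [hp : Fact p.Prime] [hq : Fact q.Prime]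

/-- One step of the induction. -/
theorem main_step (hpq : p ≠ q) (h23 : ¬ ((p = 2 ∧ q = 3) ∨ (p = 3 ∧ q = 2))) (hsol : IsPSolvable p X)
    (hO : pPrimeCore p X = ⊥) (T : Sylow p X) (hqX : q ∣ Nat.card X)
    (IH1 : ∀ Y : Subgroup X, (T : Subgroup X) ≤ Y → Y ≠ ⊤ → q ∣ Nat.card Y → Concl p q (T : Subgroup X))
    (IH2 : (omZ p (T : Subgroup X)).map (T : Subgroup X).subtype ≤ Subgroup.center X → Concl p q (T : Subgroup X)) :
    Concl p q (T : Subgroup X) := by
  classical
  set Ω : Subgroup X := (omZ p (T : Subgroup X)).map (T : Subgroup X).subtype with hΩ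
  set U : Subgroup X := pCore p X with hU
  have hUT : U ≤ T := pCore_le_sylow p T
  have hCU : Subgroup.centralizer (U : Set X) ≤ U := centralizer_pCore_le_of_pSolvable hsol hO
  have hΩT : Ω ≤ T := by
    rintro _ ⟨t, _, rfl⟩
    exact t.2
  have hΩC : ∀ x ∈ Ω, ∀ t ∈ (T : Subgroup X), t * x = x * t := by
    rintro _ ⟨z, hz, rfl⟩ t ht
    have h1 := Subgroup.mem_center_iff.mp hz.1 ⟨t, ht⟩
    exact congrArg Subtype.val h1
  have hΩp : ∀ x ∈ Ω, x ^ p = 1 := by
    rintro _ ⟨z, hz, rfl⟩
    have h1 := congrArg Subtype.val hz.2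
    simpa using h1
  have hΩU : Ω ≤ Subgroup.centralizer (U : Set X) := by
    intro x hx
    rw [Subgroup.mem_centralizer_iff]
    intro u hu
    exact hΩC x hx u (hUT hu)
  set V : Subgroup X := Subgroup.normalClosure (Ω : Set X) with hV
  haveI hVn : V.Normal := Subgroup.normalClosure_normal
  have hVsub : V ≤ U ⊓ Subgroup.centralizer (U : Set X) := by
    apply Subgroup.normalClosure_le_normal
    intro x hx
    exact ⟨hCU (hΩU hx), hΩU hx⟩
  have hVc : ∀ a ∈ V, ∀ b ∈ V, a * b = b * a := by
    intro a ha b hb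
    exact (Subgroup.mem_centralizer_iff.mp (hVsub ha).2 b (hVsub hb).1).symm
  have hVp : ∀ a ∈ V, a ^ p = 1 := by
    intro a ha
    have h1 : IsElementaryAbelian p (Subgroup.closure (Group.conjugatesOfSet (Ω : Set X))) := by
      apply isElementaryAbelian_closure
      · intro x hx y hy
        exact hVc x (Subgroup.subset_closure hx) y (Subgroup.subset_closure hy)
      · intro x hx
        obtain ⟨b, hb, hbx⟩ := Group.mem_conjugatesOfSet_iff.mp hx
        obtain ⟨c, rfl⟩ := isConj_iff.mp hbx
        rw [conj_pow, hΩp b hb]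
        group
    exact h1.2 a ha
  have hVea : IsElementaryAbelian p V := isElementaryAbelian_of_comm hVc hVp
  letI : CommGroup V := commGroupOf V hVea.1
  set ρ : X →* MulAut V := MulAut.conjNormal with hρ
  have hρa : ∀ x (w : V), V.subtype (ρ x w) = x * V.subtype w * x⁻¹ := fun x w => MulAut.conjNormal_apply x w
  have hker : ∀ x, x ∈ ρ.ker ↔ ∀ v ∈ V, x * v = v * x := by
    intro x
    rw [MonoidHom.mem_ker]
    constructor
    · intro h v hv
      have h1 := hρa x ⟨v, hv⟩
      rw [h] at h1
      have h2 : v = x * v * x⁻¹ := h1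
      rw [eq_mul_inv_iff_mul_eq] at h2
      exact h2.symm
    · intro h
      ext w
      have h1 := hρa x w
      have h2 : (x : X) * (w : X) * x⁻¹ = w := by
        rw [h w w.2]
        group
      show ((ρ x w : V) : X) = w
      exact h1.trans h2
  have hUker : U ≤ ρ.ker := by
    intro u hu
    rw [hker]
    intro v hv
    exact (Subgroup.mem_centralizer_iff.mp (hVsub hv).2 u hu)
  have hVT : V ≤ T := fun x hx => hUT (hVsub hx).1
  have hιr : V.subtype.range ≤ T := by
    rw [Subgroup.range_subtype]
    exact hVT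
  by_cases hqC : q ∣ Nat.card ρ.ker
  · haveI hkn : ρ.ker.Normal := MonoidHom.normal_ker ρ
    by_cases hY : ρ.ker ⊔ (T : Subgroup X) = ⊤
    · apply IH2
      intro w hw
      rw [Subgroup.mem_center_iff]
      intro x
      have hx : x ∈ ρ.ker ⊔ (T : Subgroup X) := by
        rw [hY]
        trivial
      rw [← SetLike.mem_coe, sup_comm, Subgroup.mul_normal] at hx
      obtain ⟨t, ht, c, hc, rfl⟩ := Set.mem_mul.mp hx
      have hwV : w ∈ V := Subgroup.le_normalClosure hw
      have h1 : c * w = w * c := (hker c).mp hc w hwV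
      have h2 : t * w = w * t := hΩC w hw t ht
      calc t * c * w = t * (c * w) := mul_assoc _ _ _
        _ = (t * w) * c := by rw [h1, mul_assoc]
        _ = w * (t * c) := by rw [h2, mul_assoc]
    · refine IH1 _ le_sup_right hY (hqC.trans ?_)
      exact Subgroup.card_dvd_of_le le_sup_left
  · exact case_B hpq h23 (fun w => Subtype.ext (hVp w w.2)) V.subtype V.subtype_injective ρ hρa hsol T hιr
      hUker hqX hqC IH1

omit hq in
/-- `O_{p'}` stays trivial for subgroups containing a Sylow subgroup. -/
theorem core_subgroup (hsol : IsPSolvable p X) (hO : pPrimeCore p X = ⊥) (T : Sylow p X) (Y : Subgroup X)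
    (hTY : (T : Subgroup X) ≤ Y) : pPrimeCore p Y = ⊥ := by
  set U : Subgroup X := pCore p X with hU
  have hUT : U ≤ T := pCore_le_sylow p T
  have hUY : U ≤ Y := hUT.trans hTY
  have hCU : Subgroup.centralizer (U : Set X) ≤ U := centralizer_pCore_le_of_pSolvable hsol hO
  set O := pPrimeCore p Y with hOY
  haveI hUn : (U.subgroupOf Y).Normal := by
    rw [hU]
    infer_instance
  haveI hOn : O.Normal := by
    rw [hOY]
    infer_instance
  have hOc : (Nat.card O).Coprime p := card_pPrimeCore_coprime p
  have hUp : IsPGroup p U := isPGroup_pCore p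
  have hdisj : Disjoint O (U.subgroupOf Y) := by
    rw [Subgroup.disjoint_def]
    intro x hx hx2
    rw [Subgroup.mem_subgroupOf] at hx2
    obtain ⟨k, hk⟩ := hUp ⟨_, hx2⟩
    have h1 : orderOf (⟨x, hx⟩ : O) ∣ p ^ k := by
      apply orderOf_dvd_of_pow_eq_one
      apply Subtype.ext
      apply Subtype.ext
      have := congrArg Subtype.val hk
      simpa using this
    have h2 : orderOf (⟨x, hx⟩ : O) ∣ Nat.card O := orderOf_dvd_natCard _
    have h3 := Nat.eq_one_of_dvd_coprimes (Nat.Coprime.pow_right k hOc) h2 h1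
    have h4 := orderOf_eq_one_iff.mp h3
    exact congrArg Subtype.val h4
  rw [eq_bot_iff]
  intro x hx
  have hxC : (x : X) ∈ Subgroup.centralizer (U : Set X) := by
    rw [Subgroup.mem_centralizer_iff]
    intro u hu
    have hu' : (⟨u, hUY hu⟩ : Y) ∈ U.subgroupOf Y := by
      rw [Subgroup.mem_subgroupOf]
      exact hu
    have h1 := Subgroup.commute_of_normal_of_disjoint _ _ hOn hUn hdisj x ⟨u, hUY hu⟩ hx hu'
    exact (congrArg Subtype.val h1).symm
  have hxU := hCU hxC
  obtain ⟨k, hk⟩ := hUp ⟨_, hxU⟩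
  have h1 : orderOf (⟨x, hx⟩ : O) ∣ p ^ k := by
    apply orderOf_dvd_of_pow_eq_one
    apply Subtype.ext
    apply Subtype.ext
    have := congrArg Subtype.val hk
    simpa using this
  have h2 : orderOf (⟨x, hx⟩ : O) ∣ Nat.card O := orderOf_dvd_natCard _
  have h3 := Nat.eq_one_of_dvd_coprimes (Nat.Coprime.pow_right k hOc) h2 h1
  have h4 := orderOf_eq_one_iff.mp h3
  rw [Subgroup.mem_bot]
  exact congrArg Subtype.val h4

omit hq in
/-- `O_{p'}` stays trivial modulo a central `p`-subgroup. -/
theorem core_central (hO : pPrimeCore p X = ⊥) (Z : Subgroup X) [hZ : Z.Normal] (hZc : Z ≤ Subgroup.center X)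
    (hZp : IsPGroup p Z) : pPrimeCore p (X ⧸ Z) = ⊥ := by
  set π := QuotientGroup.mk' Z with hπ
  have hπs : Function.Surjective π := QuotientGroup.mk'_surjective Z
  set O := pPrimeCore p (X ⧸ Z) with hOdef
  set L : Subgroup X := O.comap π with hL
  haveI hLn : L.Normal := Subgroup.Normal.comap inferInstance π
  have hkerπ : π.ker = Z := QuotientGroup.ker_mk' Z
  have hZL : Z ≤ L := by
    intro z hz
    show π z ∈ O
    have h0 : π z = 1 := (QuotientGroup.eq_one_iff z).mpr hz
    rw [h0]
    exact O.one_mem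
  set Z' : Subgroup L := Z.subgroupOf L with hZ'
  have hZ'c : Z' ≤ Subgroup.center L := by
    intro z hz
    rw [Subgroup.mem_center_iff]
    intro y
    apply Subtype.ext
    have h1 := Subgroup.mem_center_iff.mp (hZc (Subgroup.mem_subgroupOf.mp hz)) y
    exact h1
  have hcardZ' : Nat.card Z' = Nat.card Z := Nat.card_congr (Subgroup.subgroupOfEquivOfLe hZL).toEquiv
  have hcardL : Nat.card L = Nat.card O * Nat.card Z := by
    rw [hL, card_comap_of_surjective π hπs, hkerπ]
  have hidx : Z'.index = Nat.card O := by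
    have h1 := Subgroup.card_mul_index Z'
    rw [hcardZ', hcardL, mul_comm] at h1
    exact Nat.eq_of_mul_eq_mul_right Nat.card_pos h1
  have hOc : (Nat.card O).Coprime p := card_pPrimeCore_coprime p
  have hc : (Nat.card Z').Coprime Z'.index := by
    rw [hcardZ', hidx]
    obtain ⟨k, hk⟩ := IsPGroup.iff_card.mp hZp
    rw [hk]
    exact (Nat.Coprime.pow_right k hOc).symm
  obtain ⟨K, hK, hKmem⟩ := exists_complement_of_central Z' hZ'c hc
  have hKn : (K.map L.subtype).Normal := by
    constructor
    rintro x ⟨⟨y, hy⟩, hyK, rfl⟩ g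
    have hy2 : g * y * g⁻¹ ∈ L := hLn.conj_mem y hy g
    refine ⟨⟨g * y * g⁻¹, hy2⟩, ?_, rfl⟩
    show (⟨g * y * g⁻¹, hy2⟩ : L) ∈ K
    rw [hKmem]
    apply Subtype.ext
    have h3 := congrArg Subtype.val ((hKmem _).mp hyK)
    simp only [Subgroup.coe_pow, Subgroup.coe_one] at h3 ⊢
    rw [conj_pow, h3]
    group
  have hKcard : Nat.card (K.map L.subtype) = Nat.card O := by
    rw [Subgroup.card_map_of_injective L.subtype_injective, ← hidx]
    exact (Subgroup.IsComplement'.index_eq_card hK.symm).symm
  have hKle : K.map L.subtype ≤ pPrimeCore p X := by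
    apply le_pPrimeCore hKn
    rw [hKcard]
    exact hOc
  rw [hO, le_bot_iff, ← Subgroup.card_eq_one, hKcard] at hKle
  exact Subgroup.card_eq_one.mp hKle

/-- **The local theorem**. -/
theorem theorem_F (hpq : p ≠ q) (h23 : ¬ ((p = 2 ∧ q = 3) ∨ (p = 3 ∧ q = 2))) :
    ∀ (n : ℕ) (X : Type u) [Group X] [Finite X], Nat.card X = n → IsPSolvable p X →
      pPrimeCore p X = ⊥ → ∀ T : Sylow p X, q ∣ Nat.card X → Concl p q (T : Subgroup X) := by
  intro n
  induction n using Nat.strong_induction_on with
  | _ n ih =>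
    intro X _ _ hn hsol hO T hqX
    have hqp : q.Prime := Fact.out
    apply main_step hpq h23 hsol hO T hqX
    · intro Y hTY hY hqY
      have hlt : Nat.card Y < n := by
        rw [← hn]
        have h1 := Subgroup.card_mul_index Y
        have h2 : Y.index ≠ 1 := fun h => hY (Subgroup.index_eq_one.mp h)
        have h3 : 0 < Y.index := Nat.pos_of_ne_zero Subgroup.index_ne_zero_of_finite
        have h4 : 0 < Nat.card Y := Nat.card_pos
        have h5 : 2 ≤ Y.index := by omega
        nlinarith
      have h1 := ih _ hlt ↥Y rfl (isPSolvable_subgroup hsol Y) (core_subgroup hsol hO T Y hTY)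
        (T.subtype hTY) hqY
      rw [Sylow.coe_subtype] at h1
      exact concl_of_le hTY h1
    · intro hΩ
      set Ω : Subgroup X := (omZ p (T : Subgroup X)).map (T : Subgroup X).subtype with hΩd
      haveI hΩn : Ω.Normal := by
        constructor
        intro x hx g
        have h1 := Subgroup.mem_center_iff.mp (hΩ hx) g
        rw [h1]
        simpa using hx
      have hΩT : Ω ≤ T := by
        rintro _ ⟨t, _, rfl⟩
        exact t.2
      have hΩp : IsPGroup p Ω := T.isPGroup'.to_le hΩT
      have hTne : Nontrivial (T : Subgroup X) := by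
        by_contra hnt
        rw [not_nontrivial_iff_subsingleton] at hnt
        have h1 : Nat.card (T : Subgroup X) = 1 := Nat.card_unique
        have h2 : ¬ p ∣ (T : Subgroup X).index := T.not_dvd_index
        have h3 := Subgroup.card_mul_index (T : Subgroup X)
        rw [h1, one_mul] at h3
        rw [h3] at h2
        have h4 : (⊤ : Subgroup X) ≤ pPrimeCore p X := by
          apply le_pPrimeCore inferInstance
          rw [Subgroup.card_top]
          exact ((Nat.Prime.coprime_iff_not_dvd (Fact.out : p.Prime)).mpr h2).symm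
        rw [hO, le_bot_iff] at h4
        have h5 : Nat.card X = 1 := by
          rw [← Subgroup.card_top, h4, Subgroup.card_bot]
        rw [h5] at hqX
        exact hqp.one_lt.ne' (Nat.dvd_one.mp hqX)
      have hΩne : Ω ≠ ⊥ := by
        intro h
        apply omZ_ne_bot (p := p) (X := (T : Subgroup X)) T.isPGroup'
        apply Subgroup.map_injective (T : Subgroup X).subtype_injective
        rw [← hΩd, h, Subgroup.map_bot]
      have hcardX : Nat.card X = Nat.card Ω * Nat.card (X ⧸ Ω) := by
        rw [← Subgroup.index_eq_card]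
        exact (Subgroup.card_mul_index Ω).symm
      have hlt : Nat.card (X ⧸ Ω) < n := by
        rw [← hn, hcardX]
        have h1 : 1 < Nat.card Ω := by
          haveI : Nontrivial Ω := (Subgroup.nontrivial_iff_ne_bot _).mpr hΩne
          exact Finite.one_lt_card
        have h2 : 0 < Nat.card (X ⧸ Ω) := Nat.card_pos
        nlinarith
      have hqΩ : ¬ q ∣ Nat.card Ω := by
        intro h
        obtain ⟨m, hm⟩ := IsPGroup.iff_card.mp hΩp
        rw [hm] at h
        exact hpq ((Nat.prime_dvd_prime_iff_eq hqp (Fact.out : p.Prime)).mp (hqp.dvd_of_dvd_pow h)).symm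
      have hqQ : q ∣ Nat.card (X ⧸ Ω) := by
        rw [hcardX] at hqX
        rcases hqp.dvd_mul.mp hqX with h | h
        · exact absurd h hqΩ
        · exact h
      have h1 := ih _ hlt (X ⧸ Ω) rfl (isPSolvable_quotient hsol Ω) (core_central hO Ω hΩ hΩp)
        (T.mapSurjective (QuotientGroup.mk'_surjective Ω)) hqQ
      rw [Sylow.coe_mapSurjective] at h1
      refine concl_of_quot hΩT ?_ h1
      have h2 : Ω.subgroupOf (T : Subgroup X) = omZ p (T : Subgroup X) := by
        rw [hΩd]
        exact Subgroup.comap_map_eq_self_of_injective (T : Subgroup X).subtype_injective _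
      rw [h2]
      exact omZ_characteristic p _

end Cfsg.Agent.Lib.H73Off6
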