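import Mathlib
import Cfsg.Agent.Lib.H73Off6
import Cfsg.Agent.Lib.CoprimeInv

/-!
# The local theorem for a normal `p`-subgroup whose automizer is `p`-solvable.
-/

set_option autoImplicit false

open scoped commutatorElement
open Cfsg

namespace Cfsg.Agent.Lib.H73Off7

open Cfsg.Agent.Lib.H73Off6 Cfsg.Agent.Lib.H73Off4 Cfsg.Agent.Lib.PCore Cfsg.Agent.Lib.PSolv
  Cfsg.Agent.Lib.CoprimeInv

universe u

variable {X : Type u} [Group X] [Finite X] {p q : ℕ} [hp : Fact p.Prime] [hq : Fact q.Prime]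

omit hq in
theorem eq_one_of_mem_coprime {O : Subgroup X} (hO : (Nat.card O).Coprime p) {x : X} (hx : x ∈ O) {k : ℕ}
    (hk : x ^ p ^ k = 1) : x = 1 := by
  have h1 : orderOf x ∣ Nat.card O := Subgroup.orderOf_dvd_natCard O hx
  have h2 : orderOf x ∣ p ^ k := orderOf_dvd_of_pow_eq_one hk
  exact orderOf_eq_one_iff.mp (Nat.eq_one_of_dvd_coprimes (Nat.Coprime.pow_right k hO) h1 h2)

/-- Transport from the quotient by a normal `p'`-subgroup. -/
theorem concl_of_core {T O : Subgroup X} (hT : IsPGroup p T) [hO : O.Normal] (hOc : (Nat.card O).Coprime p)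
    (h : Concl p q (T.map (QuotientGroup.mk' O))) : Concl p q T := by
  set π := QuotientGroup.mk' O with hπ
  obtain ⟨K', hK', z, ⟨n, hn⟩, hz1, hz2⟩ := h
  have hπs : Function.Surjective π := QuotientGroup.mk'_surjective O
  have hker : ∀ x, π x = 1 ↔ x ∈ O := fun x => QuotientGroup.eq_one_iff x
  set f : T →* T.map π := π.subgroupMap T with hf
  have hfs : Function.Surjective f := π.subgroupMap_surjective T
  have hpel : ∀ x ∈ T, x ∈ O → x = 1 := by
    intro x hxT hxO
    obtain ⟨k, hk⟩ := hT ⟨x, hxT⟩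
    have h1 : x ^ p ^ k = 1 := by
      have := congrArg Subtype.val hk
      simpa using this
    exact eq_one_of_mem_coprime hOc hxO h1
  have hfker : f.ker = ⊥ := by
    rw [eq_bot_iff]
    intro x hx
    have h1 : π x = 1 := congrArg Subtype.val hx
    rw [Subgroup.mem_bot]
    exact Subtype.ext (hpel x x.2 ((hker _).mp h1))
  have hchar : (K'.comap f).Characteristic := by
    refine char_comap f hfs ?_ K' hK'
    rw [hfker]
    infer_instance
  set KX : Subgroup X := (K'.comap f).map T.subtype with hKX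
  set KB : Subgroup (X ⧸ O) := K'.map (T.map π).subtype with hKB
  have hKXT : KX ≤ T := by
    rintro _ ⟨t, _, rfl⟩
    exact t.2
  have hKXπ : ∀ x ∈ KX, π x ∈ KB := by
    rintro _ ⟨t, ht, rfl⟩
    exact ⟨f t, ht, rfl⟩
  have hKBπ : ∀ b ∈ KB, ∃ x ∈ KX, π x = b := by
    rintro _ ⟨k, hk, rfl⟩
    obtain ⟨t, rfl⟩ := hfs k
    exact ⟨t, ⟨t, hk, rfl⟩, rfl⟩
  set L : Subgroup X := KB.comap π with hL
  have hKXp : IsPGroup p KX := hT.to_le hKXT
  have hsy : IsSylowIn p KX L := by
    refine ⟨fun x hx => hKXπ x hx, hKXp, ?_⟩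
    intro R hRL hRp hKR
    apply le_antisymm _ hKR
    intro r hr
    obtain ⟨k, hk, hkr⟩ := hKBπ (π r) (hRL hr)
    have h1 : k⁻¹ * r ∈ O := by
      apply (hker _).mp
      rw [map_mul, map_inv, hkr, inv_mul_cancel]
    have h2 : k⁻¹ * r ∈ R := R.mul_mem (R.inv_mem (hKR hk)) hr
    obtain ⟨j, hj⟩ := hRp ⟨_, h2⟩
    have h3 : (k⁻¹ * r) ^ p ^ j = 1 := by
      have := congrArg Subtype.val hj
      simpa using this
    have h4 := eq_one_of_mem_coprime hOc h1 h3
    have h5 : r = k := by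
      rw [inv_mul_eq_one] at h4
      exact h4.symm
    rw [h5]
    exact hk
  obtain ⟨g, hg⟩ := hπs z
  have hgL : g ∈ Subgroup.normalizer (L : Set X) := by
    rw [Subgroup.mem_normalizer_iff]
    intro x
    show π x ∈ KB ↔ π (g * x * g⁻¹) ∈ KB
    rw [map_mul, map_mul, map_inv, hg]
    exact Subgroup.mem_normalizer_iff.mp hz1 _
  obtain ⟨l, hl, hcl⟩ := hsy.exists_conj (hsy.cj_of_normalizer hgL)
  obtain ⟨k, hk, hkl⟩ := hKBπ (π l) hl
  -- an element of `X` normalizing `KX` with image `z`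
  set m : X := k * (l⁻¹ * g) with hm
  have hmN : m ∈ Subgroup.normalizer (KX : Set X) := by
    have h1 : l⁻¹ * g ∈ Subgroup.normalizer (KX : Set X) := by
      apply mem_normalizer_of_cj_eq
      rw [← cj_cj, hcl, cj_cj]
      simp [cj_one]
    exact Subgroup.mul_mem _ (Subgroup.le_normalizer hk) h1
  have hmπ : π m = z := by
    rw [hm, map_mul, map_mul, map_inv, hg, hkl]
    group
  set N := Subgroup.normalizer (KX : Set X) with hN
  obtain ⟨y, ⟨r, hr⟩, hy⟩ := exists_q_lift (q := q) (π.comp N.subtype) ⟨m, hmN⟩ (n := n) (by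
    show (π m) ^ q ^ n = 1
    rw [hmπ]
    exact hn)
  have hyπ : π (y : X) = z := by
    have : π (y : X) = π m := hy
    rw [this, hmπ]
  refine ⟨K'.comap f, hchar, (y : X), ⟨r, ?_⟩, y.2, ?_⟩
  · have := congrArg Subtype.val hr
    simpa using this
  · intro hc
    apply hz2
    rw [Subgroup.mem_centralizer_iff]
    intro b hb
    obtain ⟨x, hx, rfl⟩ := hKBπ b hb
    have h1 : x * (y : X) = (y : X) * x := Subgroup.mem_centralizer_iff.mp hc x hx
    rw [← hyπ, ← map_mul, ← map_mul, h1]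

omit hq in
/-- Extension of `p`-solvability along a surjection. -/
theorem isPSolvable_of_surj {A B : Type*} [Group A] [Group B] (f : A →* B) (hf : Function.Surjective f)
    [Finite A] (hB : IsPSolvable p B) (hk : (∃ m : ℕ, Nat.card f.ker = p ^ m) ∨ (Nat.card f.ker).Coprime p) :
    IsPSolvable p A := by
  refine Cfsg.Agent.Lib.MaxPNilp.isPSolvable_of_quotient p f.ker hk ?_
  exact isPSolvable_of_surjective hB (QuotientGroup.quotientKerEquivOfSurjective f hf).symm.toMonoidHom
    (QuotientGroup.quotientKerEquivOfSurjective f hf).symm.surjective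

/-- **The local theorem for a normal `p`-subgroup.** -/
theorem thm_M (hpq : p ≠ q) (h23 : ¬ ((p = 2 ∧ q = 3) ∨ (p = 3 ∧ q = 2))) (H : Subgroup X) [hHn : H.Normal]
    (hHp : IsPGroup p H) (C : Subgroup X) [hCn : C.Normal] (hC : C = Subgroup.centralizer (H : Set X))
    (hsol : IsPSolvable p (X ⧸ C)) (T : Sylow p X) (y : X) (n : ℕ) (hy : y ^ q ^ n = 1) (hyC : y ∉ C) :
    Concl p q (T : Subgroup X) := by
  classical
  have hqp : q.Prime := Fact.out
  have hpp : p.Prime := Fact.out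
  obtain ⟨D₀, hD₀⟩ := Cfsg.Agent.Lib.PResid.exists_sylow_inf_of_normal T C
  set D : Subgroup X := (T : Subgroup X) ⊓ C with hD
  have htop := Sylow.normalizer_sup_eq_top D₀
  rw [hD₀] at htop
  set X₁ : Subgroup X := Subgroup.normalizer (D : Set X) with hX₁
  have hTX₁ : (T : Subgroup X) ≤ X₁ := by
    intro t ht
    apply Cfsg.Agent.Lib.Replacement.mem_normalizer_of_forall
    rintro x ⟨hx1, hx2⟩
    exact ⟨T.mul_mem (T.mul_mem ht hx1) (T.inv_mem ht), hCn.conj_mem x hx2 t⟩
  have hfac : ∀ g : X, ∃ x ∈ X₁, ∃ c ∈ C, g = x * c := by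
    intro g
    have h1 : g ∈ X₁ ⊔ C := by
      rw [htop]
      trivial
    rw [← SetLike.mem_coe, Subgroup.mul_normal] at h1
    obtain ⟨x, hx, c, hc, rfl⟩ := Set.mem_mul.mp h1
    exact ⟨x, hx, c, hc, rfl⟩
  set φ : X₁ →* X ⧸ C := (QuotientGroup.mk' C).comp X₁.subtype with hφ
  have hφv : ∀ x : X₁, φ x = QuotientGroup.mk' C (x : X) := fun _ => rfl
  have hφs : Function.Surjective φ := by
    intro b
    obtain ⟨g, rfl⟩ := QuotientGroup.mk'_surjective C b
    obtain ⟨x, hx, c, hc, rfl⟩ := hfac g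
    refine ⟨⟨x, hx⟩, ?_⟩
    have hc1 : QuotientGroup.mk' C c = 1 := (QuotientGroup.eq_one_iff c).mpr hc
    rw [hφv, map_mul, hc1, mul_one]
  have hφk : ∀ x : X₁, x ∈ φ.ker ↔ (x : X) ∈ C := by
    intro x
    rw [MonoidHom.mem_ker, hφv]
    exact QuotientGroup.eq_one_iff _
  -- `p`-solvability of `X₁`
  have hsol₁ : IsPSolvable p X₁ := by
    set D' : Subgroup X₁ := D.subgroupOf X₁ with hD'
    haveI hD'n : D'.Normal := Subgroup.normal_subgroupOf_of_le_normalizer le_rfl
    have hD'le : D' ≤ φ.ker := by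
      intro x hx
      rw [hφk]
      exact (Subgroup.mem_subgroupOf.mp hx).2
    let φ₂ : X₁ ⧸ D' →* X ⧸ C := QuotientGroup.lift D' φ hD'le
    have hφ₂ : ∀ x : X₁, φ₂ (x : X₁ ⧸ D') = φ x := fun x => rfl
    have hφ₂s : Function.Surjective φ₂ := by
      intro b
      obtain ⟨x, rfl⟩ := hφs b
      exact ⟨(x : X₁ ⧸ D'), rfl⟩
    have hDp : IsPGroup p D := T.isPGroup'.to_le inf_le_left
    have hcard₂ : Nat.card φ₂.ker * Nat.card D' = Nat.card φ.ker := by
      have h1 := card_comap_of_surjective (QuotientGroup.mk' D') (QuotientGroup.mk'_surjective D') φ₂.ker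
      rw [QuotientGroup.ker_mk'] at h1
      rw [← h1]
      congr 1
    have hD'card : Nat.card D' = Nat.card D :=
      Nat.card_congr (Subgroup.subgroupOfEquivOfLe (show D ≤ X₁ from Subgroup.le_normalizer)).toEquiv
    have hcardC : Nat.card φ.ker ∣ Nat.card C := by
      have h1 : φ.ker = C.subgroupOf X₁ := by
        ext x
        rw [hφk, Subgroup.mem_subgroupOf]
      rw [h1, Cfsg.Agent.Lib.Replacement.card_subgroupOf]
      exact Subgroup.card_dvd_of_le inf_le_right
    have hD₀card : Nat.card D₀ = Nat.card D := by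
      rw [← hD₀]
      exact (Subgroup.card_map_of_injective C.subtype_injective).symm
    have hidx : ¬ p ∣ (D₀ : Subgroup C).index := D₀.not_dvd_index
    have hCcard : Nat.card C = Nat.card D * (D₀ : Subgroup C).index := by
      rw [← hD₀card]
      exact (Subgroup.card_mul_index (D₀ : Subgroup C)).symm
    have hk₂ : (Nat.card φ₂.ker).Coprime p := by
      rw [Nat.coprime_comm, Nat.Prime.coprime_iff_not_dvd hpp]
      intro hd
      apply hidx
      have h1 : Nat.card φ₂.ker * Nat.card D ∣ Nat.card D * (D₀ : Subgroup C).index := by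
        rw [← hD'card, hcard₂, hD'card, ← hCcard]
        exact hcardC
      rw [mul_comm] at h1
      have h2 := Nat.dvd_of_mul_dvd_mul_left Nat.card_pos h1
      exact hd.trans h2
    refine Cfsg.Agent.Lib.MaxPNilp.isPSolvable_of_quotient p D' (Or.inl ?_) ?_
    · obtain ⟨m, hm⟩ := IsPGroup.iff_card.mp hDp
      exact ⟨m, by rw [hD'card, hm]⟩
    · exact isPSolvable_of_surj φ₂ hφ₂s hsol (Or.inr hk₂)
  -- a `q`-element of `X₁`
  obtain ⟨x, hx, c, hc, hyxc⟩ := hfac y
  have hφx : φ ⟨x, hx⟩ = QuotientGroup.mk' C y := by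
    have hc1 : QuotientGroup.mk' C c = 1 := (QuotientGroup.eq_one_iff c).mpr hc
    rw [hφv, hyxc, map_mul, hc1, mul_one]
  obtain ⟨y₁, ⟨r, hr⟩, hy₁⟩ := exists_q_lift (q := q) φ ⟨x, hx⟩ (n := n) (by
    rw [hφx, ← map_pow, hy, map_one])
  have hy₁C : (y₁ : X) ∉ C := by
    intro h
    apply hyC
    have h1 : φ y₁ = 1 := (hφk y₁).mpr h
    rw [hy₁, hφx] at h1
    exact (QuotientGroup.eq_one_iff y).mp h1
  set O : Subgroup X₁ := pPrimeCore p X₁ with hO
  haveI hOn : O.Normal := by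
    rw [hO]
    infer_instance
  have hOc : (Nat.card O).Coprime p := card_pPrimeCore_coprime p
  have hHT : H ≤ T := hHp.le_sylow_of_normal T
  have hHX₁ : H ≤ X₁ := hHT.trans hTX₁
  set H₁ : Subgroup X₁ := H.subgroupOf X₁ with hH₁
  haveI hH₁n : H₁.Normal := by
    rw [hH₁]
    infer_instance
  have hdisj : Disjoint O H₁ := by
    rw [Subgroup.disjoint_def]
    intro a ha hb
    rw [hH₁, Subgroup.mem_subgroupOf] at hb
    obtain ⟨k, hk⟩ := hHp ⟨_, hb⟩
    have h1 : a ^ p ^ k = 1 := by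
      apply Subtype.ext
      have := congrArg Subtype.val hk
      simpa using this
    exact eq_one_of_mem_coprime hOc ha h1
  have hy₁O : y₁ ∉ O := by
    intro h
    apply hy₁C
    rw [hC, Subgroup.mem_centralizer_iff]
    intro b hb
    have hb' : (⟨b, hHX₁ hb⟩ : X₁) ∈ H₁ := by
      rw [hH₁, Subgroup.mem_subgroupOf]
      exact hb
    have h1 := Subgroup.commute_of_normal_of_disjoint _ _ hOn hH₁n hdisj y₁ ⟨b, hHX₁ hb⟩ h hb'
    exact (congrArg Subtype.val h1).symm
  set π₂ := QuotientGroup.mk' O with hπ₂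
  have hqX₂ : q ∣ Nat.card (X₁ ⧸ O) := by
    have h1 : π₂ y₁ ≠ 1 := fun h => hy₁O ((QuotientGroup.eq_one_iff y₁).mp h)
    have h2 : orderOf (π₂ y₁) ∣ q ^ r := by
      apply orderOf_dvd_of_pow_eq_one
      rw [← map_pow, hr, map_one]
    obtain ⟨i, _, hi⟩ := (Nat.dvd_prime_pow hqp).mp h2
    have hi0 : i ≠ 0 := by
      rintro rfl
      rw [pow_zero, orderOf_eq_one_iff] at hi
      exact h1 hi
    have h3 : q ∣ orderOf (π₂ y₁) := by
      rw [hi]
      exact dvd_pow_self q hi0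
    exact h3.trans (orderOf_dvd_natCard _)
  have hF := theorem_F (p := p) (q := q) hpq h23 _ (X₁ ⧸ O) rfl (isPSolvable_quotient hsol₁ O)
    (pPrimeCore_quotient_pPrimeCore p) ((T.subtype hTX₁).mapSurjective (QuotientGroup.mk'_surjective O)) hqX₂
  rw [Sylow.coe_mapSurjective] at hF
  have hF₁ := concl_of_core (T.subtype hTX₁).isPGroup' hOc hF
  rw [Sylow.coe_subtype] at hF₁
  exact concl_of_le hTX₁ hF₁

end Cfsg.Agent.Lib.H73Off7
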