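import Mathlib
import Cfsg.Agent.Lib.SympT

/-!
# Symplectic forms in characteristic two: the elements `g_v(y, c)`, the predicates for a subgroup containing them
-/

set_option autoImplicit false
set_option linter.unusedSectionVars false
set_option linter.unusedVariables false
set_option linter.unusedSimpArgs false

namespace Cfsg.Agent.Lib.H97XA

open Matrix Cfsg Cfsg.Geo
open Cfsg.Agent.Lib.SympT (GL_ext mulVec_mul_GL mulVec_inv_GL inv_mulVec_GL)

local notation:70 g:71 " ⋆ " x:70 => Matrix.mulVec (Units.val g) x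

variable {ι : Type} [Fintype ι] [DecidableEq ι] {F : Type*} [Field F] [CharP F 2]
  {f : (ι → F) → (ι → F) → F}

/-- The map `x ↦ x + f(x,v) y + f(x,y) v + c f(x,v) v`. -/
def Gf (f : (ι → F) → (ι → F) → F) (v y : ι → F) (c : F) (x : ι → F) : ι → F :=
  x + f x v • y + f x y • v + (c * f x v) • v

/-- The map `x ↦ x + c f(x,v) v`. -/
def Tf (f : (ι → F) → (ι → F) → F) (v : ι → F) (c : F) (x : ι → F) : ι → F :=
  x + (c * f x v) • v

/-- The subgroup contains `g_v(y, c)`. -/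
def Gg (f : (ι → F) → (ι → F) → F) (L : Subgroup (GL ι F)) (v y : ι → F) (c : F) : Prop :=
  ∃ g ∈ L, ∀ x, g ⋆ x = Gf f v y c x

/-- The subgroup contains the transvection `x ↦ x + c f(x,v) v`. -/
def Tr (f : (ι → F) → (ι → F) → F) (L : Subgroup (GL ι F)) (v : ι → F) (c : F) : Prop :=
  ∃ g ∈ L, ∀ x, g ⋆ x = Tf f v c x

theorem two0 : (2 : F) = 0 := CharP.cast_eq_zero F 2

theorem vadd_self (y : ι → F) : y + y = 0 := by
  ext i
  simp only [Pi.add_apply, CharTwo.add_self_eq_zero, Pi.zero_apply]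

theorem sym (hf : IsSymplecticForm f) (x y : ι → F) : f x y = f y x := by
  rw [hf.skew, CharTwo.neg_eq]

theorem fz_l (hf : IsSymplecticForm f) (x : ι → F) : f 0 x = 0 := Cfsg.Agent.Lib.SympT.f_zero_left hf.bilinear x
theorem fz_r (hf : IsSymplecticForm f) (x : ι → F) : f x 0 = 0 := Cfsg.Agent.Lib.SympT.f_zero_right hf.bilinear x

theorem Gf_mul (hf : IsSymplecticForm f) {v y y' : ι → F} {c c' : F} (hy : f y v = 0) (hy' : f y' v = 0)
    (x : ι → F) : Gf f v y c (Gf f v y' c' x) = Gf f v (y + y') (c + c' + f y y') x := by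
  have hb := hf.bilinear
  have hvy : f v y = 0 := by rw [sym hf, hy]
  have hvy' : f v y' = 0 := by rw [sym hf, hy']
  have hyy : f y' y = f y y' := sym hf _ _
  simp only [Gf, hb.add_left, hb.add_right, hb.smul_left, hb.smul_right, hf.alternating, hy, hy', hvy, hvy', hyy,
    smul_eq_mul, mul_zero, add_zero, zero_add]
  ext i
  simp only [Pi.add_apply, Pi.smul_apply, smul_eq_mul]
  grind

theorem Gf_add_smul (hf : IsSymplecticForm f) (v y : ι → F) (s c : F) (x : ι → F) :
    Gf f v (y + s • v) c x = Gf f v y c x := by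
  have hb := hf.bilinear
  simp only [Gf, hb.add_right, hb.smul_right]
  ext i
  simp only [Pi.add_apply, Pi.smul_apply, smul_eq_mul]
  grind

theorem Gf_zero (hf : IsSymplecticForm f) (v : ι → F) (c : F) (x : ι → F) : Gf f v 0 c x = Tf f v c x := by
  simp only [Gf, Tf, fz_r hf]
  ext i
  simp

theorem Gf_self_smul (hf : IsSymplecticForm f) (v : ι → F) (s c : F) (x : ι → F) :
    Gf f v (s • v) c x = Tf f v c x := by
  have := Gf_add_smul hf v 0 s c x
  rw [zero_add] at this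
  rw [this, Gf_zero hf]

theorem Gf_smul_v (hf : IsSymplecticForm f) (κ : F) (v y : ι → F) (c : F) (x : ι → F) :
    Gf f (κ • v) y c x = Gf f v (κ • y) (κ ^ 2 * c) x := by
  have hb := hf.bilinear
  simp only [Gf, hb.smul_right]
  ext i
  simp only [Pi.add_apply, Pi.smul_apply, smul_eq_mul]
  ring

theorem Tf_smul_v (hf : IsSymplecticForm f) (κ : F) (v : ι → F) (c : F) (x : ι → F) :
    Tf f (κ • v) c x = Tf f v (κ ^ 2 * c) x := by
  have hb := hf.bilinear
  simp only [Tf, hb.smul_right]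
  ext i
  simp only [Pi.add_apply, Pi.smul_apply, smul_eq_mul]
  ring

theorem Tf_mul (hf : IsSymplecticForm f) (v : ι → F) (c c' : F) (x : ι → F) :
    Tf f v c (Tf f v c' x) = Tf f v (c + c') x := by
  have hb := hf.bilinear
  simp only [Tf, hb.add_left, hb.smul_left, hf.alternating, mul_zero, add_zero]
  ext i
  simp only [Pi.add_apply, Pi.smul_apply, smul_eq_mul]
  ring

section Sub

variable {L : Subgroup (GL ι F)}

theorem Gg_mul (hf : IsSymplecticForm f) {v y y' : ι → F} {c c' : F} (hy : f y v = 0) (hy' : f y' v = 0)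
    (h : Gg f L v y c) (h' : Gg f L v y' c') : Gg f L v (y + y') (c + c' + f y y') := by
  obtain ⟨g, hg, e⟩ := h
  obtain ⟨g', hg', e'⟩ := h'
  refine ⟨g * g', L.mul_mem hg hg', fun x => ?_⟩
  rw [mulVec_mul_GL, e', e, Gf_mul hf hy hy']

theorem Tr_mul (hf : IsSymplecticForm f) {v : ι → F} {c c' : F}
    (h : Tr f L v c) (h' : Tr f L v c') : Tr f L v (c + c') := by
  obtain ⟨g, hg, e⟩ := h
  obtain ⟨g', hg', e'⟩ := h'
  refine ⟨g * g', L.mul_mem hg hg', fun x => ?_⟩
  rw [mulVec_mul_GL, e', e, Tf_mul hf]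

theorem Tr_zero (hf : IsSymplecticForm f) (v : ι → F) : Tr f L v 0 := by
  refine ⟨1, L.one_mem, fun x => ?_⟩
  simp [Tf]

theorem Gg_of_Tr (hf : IsSymplecticForm f) {v : ι → F} {c : F} (h : Tr f L v c) : Gg f L v 0 c := by
  obtain ⟨g, hg, e⟩ := h
  exact ⟨g, hg, fun x => by rw [e, Gf_zero hf]⟩

theorem Tr_of_Gg (hf : IsSymplecticForm f) {v : ι → F} {c : F} (h : Gg f L v 0 c) : Tr f L v c := by
  obtain ⟨g, hg, e⟩ := h
  exact ⟨g, hg, fun x => by rw [e, Gf_zero hf]⟩

theorem Tr_of_Gg_smul (hf : IsSymplecticForm f) {v : ι → F} {s c : F} (h : Gg f L v (s • v) c) : Tr f L v c := by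
  obtain ⟨g, hg, e⟩ := h
  exact ⟨g, hg, fun x => by rw [e, Gf_self_smul hf]⟩

theorem Gg_add_smul (hf : IsSymplecticForm f) {v y : ι → F} {s c : F} :
    Gg f L v (y + s • v) c ↔ Gg f L v y c := by
  constructor
  · rintro ⟨g, hg, e⟩
    exact ⟨g, hg, fun x => by rw [e, Gf_add_smul hf]⟩
  · rintro ⟨g, hg, e⟩
    exact ⟨g, hg, fun x => by rw [e, Gf_add_smul hf]⟩

theorem Gg_smul_v (hf : IsSymplecticForm f) {κ : F} {v y : ι → F} {c : F} :
    Gg f L (κ • v) y c ↔ Gg f L v (κ • y) (κ ^ 2 * c) := by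
  constructor
  · rintro ⟨g, hg, e⟩
    exact ⟨g, hg, fun x => by rw [e, Gf_smul_v hf]⟩
  · rintro ⟨g, hg, e⟩
    exact ⟨g, hg, fun x => by rw [e, Gf_smul_v hf]⟩

theorem Tr_smul_v (hf : IsSymplecticForm f) {κ : F} {v : ι → F} {c : F} :
    Tr f L (κ • v) c ↔ Tr f L v (κ ^ 2 * c) := by
  constructor
  · rintro ⟨g, hg, e⟩
    exact ⟨g, hg, fun x => by rw [e, Tf_smul_v hf]⟩
  · rintro ⟨g, hg, e⟩
    exact ⟨g, hg, fun x => by rw [e, Tf_smul_v hf]⟩

/-- `f (ℓ⁻¹ x) v = f x (ℓ v)`. -/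
theorem f_inv_left {ℓ : GL ι F} (hℓ : ∀ x y, f (ℓ ⋆ x) (ℓ ⋆ y) = f x y) (x v : ι → F) :
    f ((ℓ⁻¹ : GL ι F) ⋆ x) v = f x (ℓ ⋆ v) := by
  have := hℓ ((ℓ⁻¹ : GL ι F) ⋆ x) v
  rw [mulVec_inv_GL] at this
  exact this.symm

theorem Gg_conj (hL : ∀ g ∈ L, ∀ x y, f (g ⋆ x) (g ⋆ y) = f x y) {ℓ : GL ι F} (hℓ : ℓ ∈ L)
    {v y : ι → F} {c : F} (h : Gg f L v y c) : Gg f L (ℓ ⋆ v) (ℓ ⋆ y) c := by
  obtain ⟨g, hg, e⟩ := h
  refine ⟨ℓ * g * ℓ⁻¹, L.mul_mem (L.mul_mem hℓ hg) (L.inv_mem hℓ), fun x => ?_⟩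
  rw [mulVec_mul_GL, mulVec_mul_GL, e]
  simp only [Gf, mulVec_add, mulVec_smul, mulVec_inv_GL, f_inv_left (hL ℓ hℓ)]

theorem Tr_conj (hL : ∀ g ∈ L, ∀ x y, f (g ⋆ x) (g ⋆ y) = f x y) {ℓ : GL ι F} (hℓ : ℓ ∈ L)
    {v : ι → F} {c : F} (h : Tr f L v c) : Tr f L (ℓ ⋆ v) c := by
  obtain ⟨g, hg, e⟩ := h
  refine ⟨ℓ * g * ℓ⁻¹, L.mul_mem (L.mul_mem hℓ hg) (L.inv_mem hℓ), fun x => ?_⟩
  rw [mulVec_mul_GL, mulVec_mul_GL, e]
  simp only [Tf, mulVec_add, mulVec_smul, mulVec_inv_GL, f_inv_left (hL ℓ hℓ)]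

/-- Two lifts of the same `y` differ by a transvection. -/
theorem Tr_of_two (hf : IsSymplecticForm f) {v y : ι → F} {c c' : F} (hy : f y v = 0)
    (h : Gg f L v y c) (h' : Gg f L v y c') : Tr f L v (c + c') := by
  have h2 := Gg_mul hf hy hy h h'
  rw [hf.alternating, add_zero, vadd_self] at h2
  exact Tr_of_Gg hf h2

/-- The action of `g_v(y,c)` on `v`-orthogonal vectors. -/
theorem Gf_of_perp (hf : IsSymplecticForm f) {v y x : ι → F} {c : F} (hx : f x v = 0) :
    Gf f v y c x = x + f x y • v := by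
  simp only [Gf, hx, zero_smul, mul_zero, add_zero]

end Sub

/-- Squares are surjective. -/
theorem exists_sqrt [Fintype F] (x : F) : ∃ y : F, y * y = x := by
  have h2 : (2 : F) = 0 := two0
  have h3 : ringChar F = 2 := by
    have h4 : ringChar F ∣ 2 := by
      apply ringChar.dvd
      exact_mod_cast h2
    rcases (Nat.dvd_prime Nat.prime_two).1 h4 with h5 | h5
    · exact absurd h5 (by
        have := CharP.ringChar_ne_one (R := F)
        exact this)
    · exact h5
  obtain ⟨y, hy⟩ := FiniteField.isSquare_of_char_two h3 x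
  exact ⟨y, hy.symm⟩

/-- Independent vectors: prescribed values of the two functionals. -/
theorem exists_y2 (hf : IsSymplecticForm f) {u v : ι → F} (hu : u ≠ 0) (hv : ∀ s : F, v ≠ s • u) (s t : F) :
    ∃ y, f y u = s ∧ f y v = t := by
  classical
  have hb := hf.bilinear
  have h1 : v ∉ Submodule.span F {u} := by
    intro h
    obtain ⟨r, hr⟩ := Submodule.mem_span_singleton.1 h
    exact hv r hr.symm
  have h2 : u ∉ Submodule.span F {v} := by
    intro h
    obtain ⟨r, hr⟩ := Submodule.mem_span_singleton.1 h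
    have hr0 : r ≠ 0 := by
      rintro rfl
      rw [zero_smul] at hr
      exact hu hr.symm
    apply hv r⁻¹
    rw [← hr, smul_smul, inv_mul_cancel₀ hr0, one_smul]
  obtain ⟨y₁, hy₁, hne₁⟩ := Cfsg.Agent.Lib.SympT.exists_perp_of_notMem hf h1
  obtain ⟨y₂, hy₂, hne₂⟩ := Cfsg.Agent.Lib.SympT.exists_perp_of_notMem hf h2
  have e1 : f u y₁ = 0 := (Cfsg.Agent.Lib.SympT.mem_perp hf).1 hy₁ u (Submodule.mem_span_singleton_self u)
  have e2 : f v y₂ = 0 := (Cfsg.Agent.Lib.SympT.mem_perp hf).1 hy₂ v (Submodule.mem_span_singleton_self v)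
  refine ⟨(s / f y₂ u) • y₂ + (t / f y₁ v) • y₁, ?_, ?_⟩
  · have : f y₂ u ≠ 0 := by rwa [sym hf]
    rw [hb.add_left, hb.smul_left, hb.smul_left, sym hf y₁ u, e1, mul_zero, add_zero, div_mul_cancel₀ _ this]
  · have : f y₁ v ≠ 0 := by rwa [sym hf]
    rw [hb.add_left, hb.smul_left, hb.smul_left, sym hf y₂ v, e2, mul_zero, zero_add, div_mul_cancel₀ _ this]

/-- A non-zero vector has a partner. -/
theorem exists_partner (hf : IsSymplecticForm f) {u : ι → F} (hu : u ≠ 0) (s : F) : ∃ y, f y u = s := by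
  obtain ⟨⟨x, hx⟩, _⟩ := hf.nondegenerate u hu
  refine ⟨(s / f x u) • x, ?_⟩
  rw [hf.bilinear.smul_left, div_mul_cancel₀ _ hx]

/-- A non-zero vector orthogonal to a subspace of small dimension. -/
theorem exists_perp_ne (hf : IsSymplecticForm f) (W : Submodule F (ι → F))
    (hW : Module.finrank F W < Fintype.card ι) : ∃ y, y ≠ 0 ∧ ∀ w ∈ W, f y w = 0 := by
  have h := Cfsg.Agent.Lib.SympT.finrank_perp hf W
  have h1 : Cfsg.Agent.Lib.SympT.perp hf W ≠ ⊥ := by
    intro h0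
    rw [h0, finrank_bot] at h
    omega
  obtain ⟨y, hy, hy0⟩ := Submodule.exists_mem_ne_zero_of_ne_bot h1
  refine ⟨y, hy0, fun w hw => ?_⟩
  rw [sym hf]
  exact (Cfsg.Agent.Lib.SympT.mem_perp hf).1 hy w hw

/-- A hyperbolic pair orthogonal to a given hyperbolic pair. -/
theorem hyp_pair1 (hf : IsSymplecticForm f) {p q : ι → F} (hpq : f p q = 1) (hcard : 4 ≤ Fintype.card ι) :
    ∃ y₁ y₂, f y₁ p = 0 ∧ f y₁ q = 0 ∧ f y₂ p = 0 ∧ f y₂ q = 0 ∧ f y₁ y₂ = 1 := by
  classical
  have hb := hf.bilinear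
  have hqp : f q p = 1 := by rw [sym hf, hpq]
  have hW : Module.finrank F (Submodule.span F ({p, q} : Set (ι → F))) < Fintype.card ι := by
    have h3 : Set.finrank F ({p, q} : Set (ι → F)) ≤ 2 := by
      unfold Set.finrank
      have := finrank_span_le_card (R := F) ({p, q} : Set (ι → F))
      have h4 : (Set.toFinset ({p, q} : Set (ι → F))).card ≤ 2 := by
        simpa using Finset.card_le_two (a := p) (b := q)
      omega
    unfold Set.finrank at h3
    omega
  obtain ⟨y, hy0, hy⟩ := exists_perp_ne hf _ hW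
  have h1 := hy p (Submodule.subset_span (by simp))
  have h2 := hy q (Submodule.subset_span (by simp))
  obtain ⟨t, ht⟩ := exists_partner hf hy0 1
  have ht' : f y t = 1 := by rw [sym hf, ht]
  refine ⟨y, t + f t q • p + f t p • q, h1, h2, ?_, ?_, ?_⟩
  · simp only [hb.add_left, hb.smul_left, hf.alternating, hqp]
    grind
  · simp only [hb.add_left, hb.smul_left, hf.alternating, hpq]
    grind
  · simp only [hb.add_right, hb.smul_right, h1, h2, ht']
    simp

/-- A hyperbolic pair orthogonal to two given orthogonal hyperbolic pairs. -/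
theorem hyp_pair2 (hf : IsSymplecticForm f) {p q r s : ι → F} (hpq : f p q = 1) (hrs : f r s = 1)
    (h1 : f p r = 0) (h2 : f p s = 0) (h3 : f q r = 0) (h4 : f q s = 0) (hcard : 6 ≤ Fintype.card ι) :
    ∃ y₁ y₂, f y₁ p = 0 ∧ f y₁ q = 0 ∧ f y₁ r = 0 ∧ f y₁ s = 0 ∧ f y₂ p = 0 ∧ f y₂ q = 0 ∧ f y₂ r = 0 ∧ f y₂ s = 0 ∧
      f y₁ y₂ = 1 := by
  classical
  have hb := hf.bilinear
  have hqp : f q p = 1 := by rw [sym hf, hpq]
  have hsr : f s r = 1 := by rw [sym hf, hrs]
  have h1' : f r p = 0 := by rw [sym hf, h1]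
  have h2' : f s p = 0 := by rw [sym hf, h2]
  have h3' : f r q = 0 := by rw [sym hf, h3]
  have h4' : f s q = 0 := by rw [sym hf, h4]
  have hW : Module.finrank F (Submodule.span F ({p, q, r, s} : Set (ι → F))) < Fintype.card ι := by
    have h3 : Set.finrank F ({p, q, r, s} : Set (ι → F)) ≤ 4 := by
      unfold Set.finrank
      have := finrank_span_le_card (R := F) ({p, q, r, s} : Set (ι → F))
      have h4 : (Set.toFinset ({p, q, r, s} : Set (ι → F))).card ≤ 4 := by
        simpa using Finset.card_le_four (a := p) (b := q) (c := r) (d := s)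
      omega
    unfold Set.finrank at h3
    omega
  obtain ⟨y, hy0, hy⟩ := exists_perp_ne hf _ hW
  have e1 := hy p (Submodule.subset_span (by simp))
  have e2 := hy q (Submodule.subset_span (by simp))
  have e3 := hy r (Submodule.subset_span (by simp))
  have e4 := hy s (Submodule.subset_span (by simp))
  obtain ⟨t, ht⟩ := exists_partner hf hy0 1
  have ht' : f y t = 1 := by rw [sym hf, ht]
  refine ⟨y, t + f t q • p + f t p • q + f t s • r + f t r • s, e1, e2, e3, e4, ?_, ?_, ?_, ?_, ?_⟩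
  · simp only [hb.add_left, hb.smul_left, hf.alternating, hqp, h1', h2']
    grind
  · simp only [hb.add_left, hb.smul_left, hf.alternating, hpq, h3', h4']
    grind
  · simp only [hb.add_left, hb.smul_left, hf.alternating, hsr, h1, h3]
    grind
  · simp only [hb.add_left, hb.smul_left, hf.alternating, hrs, h2, h4]
    grind
  · simp only [hb.add_right, hb.smul_right, e1, e2, e3, e4, ht']
    simp

/-- Additive maps with a bilinear correction are surjective. -/
theorem add_surj [Fintype F] (φ₁ φ₂ : F → F) (h₂ : ∀ s t, φ₂ (s + t) = φ₂ s + φ₂ t) (w : F) :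
    ∃ s t, φ₁ s + φ₂ t + s * t = w := by
  classical
  have h0 : φ₂ 0 = 0 := by
    have := h₂ 0 0
    rw [add_zero] at this
    grind
  by_cases hex : ∃ s : F, ∀ t, t ≠ 0 → φ₂ t + s * t ≠ 0
  · obtain ⟨s, hs⟩ := hex
    have hinj : Function.Injective (fun t => φ₂ t + s * t) := by
      intro t t' h
      by_contra hne
      have h1 : t + t' ≠ 0 := by
        intro h3
        apply hne
        have := CharTwo.add_eq_zero.1 h3
        exact this
      apply hs _ h1
      rw [h₂]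
      simp only at h
      grind
    have hsurj := Finite.injective_iff_surjective.1 hinj
    obtain ⟨t, ht⟩ := hsurj (w + φ₁ s)
    refine ⟨s, t, ?_⟩
    simp only at ht
    grind
  · exfalso
    push Not at hex
    choose τ hτ hτ' using hex
    have hinj : Function.Injective τ := by
      intro s s' h
      have h1 := hτ' s
      have h2 := hτ' s'
      rw [h] at h1
      have h3 : (s + s') * τ s' = 0 := by grind
      have h4 : s + s' = 0 := by
        rcases mul_eq_zero.1 h3 with h5 | h5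
        · exact h5
        · exact absurd h5 (hτ s')
      exact CharTwo.add_eq_zero.1 h4
    have hsurj := Finite.injective_iff_surjective.1 hinj
    obtain ⟨s, hs⟩ := hsurj 0
    exact hτ s hs

/-- A cocycle on `a^⊥` is surjective on any hyperbolic plane of `a^⊥`. -/
theorem coc_surj [Fintype F] (hf : IsSymplecticForm f) {γ : (ι → F) → F} {a y₁ y₂ : ι → F}
    (hγ : ∀ y y', f y a = 0 → f y' a = 0 → γ (y + y') = γ y + γ y' + f y y')
    (h1 : f y₁ a = 0) (h2 : f y₂ a = 0) (h12 : f y₁ y₂ = 1) (w : F) :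
    ∃ s t : F, γ (s • y₁ + t • y₂) = w := by
  have hb := hf.bilinear
  have ha1 : ∀ s : F, f (s • y₁) a = 0 := fun s => by rw [hb.smul_left, h1, mul_zero]
  have ha2 : ∀ s : F, f (s • y₂) a = 0 := fun s => by rw [hb.smul_left, h2, mul_zero]
  obtain ⟨s, t, h⟩ := add_surj (fun s => γ (s • y₁)) (fun t => γ (t • y₂)) (fun s t => by
    show γ ((s + t) • y₂) = γ (s • y₂) + γ (t • y₂)
    rw [add_smul, hγ _ _ (ha2 s) (ha2 t), hb.smul_left, hb.smul_right, hf.alternating]
    simp) w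
  refine ⟨s, t, ?_⟩
  rw [hγ _ _ (ha1 s) (ha2 t), hb.smul_left, hb.smul_right, h12, ← h]
  ring

end Cfsg.Agent.Lib.H97XA
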