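import Mathlib
import Cfsg.Agent.Lib.H97XA

/-!
# A subgroup containing a large subgroup of `O₂` of a point stabiliser, the case of a transvection
-/

set_option autoImplicit false
set_option linter.unusedSectionVars false
set_option linter.unusedVariables false
set_option linter.unusedSimpArgs false

namespace Cfsg.Agent.Lib.H97XB

open Matrix Cfsg Cfsg.Geo Cfsg.Agent.Lib.H97XA
open Cfsg.Agent.Lib.SympT (GL_ext mulVec_mul_GL mulVec_inv_GL inv_mulVec_GL)

local notation:70 g:71 " ⋆ " x:70 => Matrix.mulVec (Units.val g) x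

variable {ι : Type} [Fintype ι] [DecidableEq ι] {F : Type*} [Field F] [CharP F 2] [Fintype F]
  {f : (ι → F) → (ι → F) → F}

/-- The common hypotheses. -/
structure Cx (f : (ι → F) → (ι → F) → F) (L : Subgroup (GL ι F)) (a : ι → F) (c : (ι → F) → F) : Prop where
  hf : IsSymplecticForm f
  hL : ∀ g ∈ L, ∀ x y, f (g ⋆ x) (g ⋆ y) = f x y
  card4 : 4 ≤ Fintype.card ι
  ha : a ≠ 0
  hc : ∀ y, f y a = 0 → Gg f L a y (c y)
  hcoc : ∀ y y', f y a = 0 → f y' a = 0 → c (y + y') = c y + c y' + f y y'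
  hca : ∀ y (s : F), f y a = 0 → c (y + s • a) = c y
  hirr : ∀ W : Submodule F (ι → F), (∀ g ∈ L, ∀ w ∈ W, g ⋆ w ∈ W) → W = ⊥ ∨ W = ⊤

/-- Quadratic maps with polar form `f`. -/
structure IsQ (f : (ι → F) → (ι → F) → F) (Q : (ι → F) → F) : Prop where
  add : ∀ x y, Q (x + y) = Q x + Q y + f x y
  smul : ∀ (s : F) x, Q (s • x) = s ^ 2 * Q x

variable {L : Subgroup (GL ι F)} {a : ι → F} {c : (ι → F) → F}

theorem exists_off (hf : IsSymplecticForm f)
    (hirr : ∀ W : Submodule F (ι → F), (∀ g ∈ L, ∀ w ∈ W, g ⋆ w ∈ W) → W = ⊥ ∨ W = ⊤)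
    (S : Set (ι → F)) (hS : ∀ g ∈ L, ∀ x ∈ S, g ⋆ x ∈ S) (h0 : ∃ x ∈ S, x ≠ 0) {a : ι → F} (ha : a ≠ 0) :
    ∃ x ∈ S, f x a ≠ 0 := by
  by_contra hcon
  push Not at hcon
  have hW : Submodule.span F S = ⊥ ∨ Submodule.span F S = ⊤ := by
    apply hirr
    intro g hg w hw
    induction hw using Submodule.span_induction with
    | mem x hx => exact Submodule.subset_span (hS g hg x hx)
    | zero => rw [mulVec_zero]; exact Submodule.zero_mem _
    | add x y _ _ hx hy => rw [mulVec_add]; exact Submodule.add_mem _ hx hy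
    | smul s x _ hx => rw [mulVec_smul]; exact Submodule.smul_mem _ _ hx
  rcases hW with h | h
  · obtain ⟨x, hx, hx0⟩ := h0
    have : x ∈ Submodule.span F S := Submodule.subset_span hx
    rw [h, Submodule.mem_bot] at this
    exact hx0 this
  · have hall : ∀ x ∈ Submodule.span F S, f x a = 0 := by
      intro x hx
      induction hx using Submodule.span_induction with
      | mem x hx => exact hcon x hx
      | zero => exact fz_l hf a
      | add x y _ _ hx hy => rw [hf.bilinear.add_left, hx, hy, add_zero]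
      | smul s x _ hx => rw [hf.bilinear.smul_left, hx, mul_zero]
    obtain ⟨⟨x, hx⟩, _⟩ := hf.nondegenerate a ha
    exact hx (hall x (by rw [h]; trivial))

/-- A hyperbolic plane in `a^⊥`. -/
theorem exists_hyp_perp (hf : IsSymplecticForm f) (hcard : 4 ≤ Fintype.card ι) {a : ι → F} (ha : a ≠ 0) :
    ∃ y₁ y₂, f y₁ a = 0 ∧ f y₂ a = 0 ∧ f y₁ y₂ = 1 := by
  obtain ⟨b, hb⟩ := exists_partner hf ha 1
  obtain ⟨y₁, y₂, h1, _, h3, _, h5⟩ := hyp_pair1 hf (p := b) (q := a) hb hcard
  exact ⟨y₁, y₂, by assumption, by assumption, h5⟩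

namespace Cx

variable (C : Cx f L a c)
include C

theorem c_zero : c 0 = 0 := by
  have := C.hcoc 0 0 (fz_l C.hf a) (fz_l C.hf a)
  rw [add_zero, fz_l C.hf] at this
  grind

theorem c_smul_a (s : F) : c (s • a) = 0 := by
  have := C.hca 0 s (fz_l C.hf a)
  rwa [zero_add, c_zero C] at this

/-- Every value of `c` occurs. -/
theorem c_surj (θ : F) : ∃ y, f y a = 0 ∧ c y = θ := by
  obtain ⟨y₁, y₂, h1, h2, h3⟩ := exists_hyp_perp C.hf C.card4 C.ha
  obtain ⟨s, t, h⟩ := coc_surj C.hf C.hcoc h1 h2 h3 θ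
  refine ⟨s • y₁ + t • y₂, ?_, h⟩
  rw [C.hf.bilinear.add_left, C.hf.bilinear.smul_left, C.hf.bilinear.smul_left, h1, h2]
  simp

/-- The cocycle twisted by a linear functional. -/
theorem twist_surj (z : ι → F) (θ : F) : ∃ y, f y a = 0 ∧ c y + f y z = θ := by
  obtain ⟨y₁, y₂, h1, h2, h3⟩ := exists_hyp_perp C.hf C.card4 C.ha
  have hb := C.hf.bilinear
  obtain ⟨s, t, h⟩ := coc_surj (γ := fun y => c y + f y z) C.hf (fun y y' hy hy' => by
    simp only [C.hcoc y y' hy hy', hb.add_left]
    ring) h1 h2 h3 θ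
  refine ⟨s • y₁ + t • y₂, ?_, h⟩
  rw [hb.add_left, hb.smul_left, hb.smul_left, h1, h2]
  simp

theorem f_Gf_a {y x : ι → F} {k : F} (hy : f y a = 0) : f (Gf f a y k x) a = f x a := by
  have hb := C.hf.bilinear
  simp only [Gf, hb.add_left, hb.smul_left, hy, C.hf.alternating]
  simp

omit C in
theorem f_Gf_self (hf : IsSymplecticForm f) (a y x : ι → F) (k : F) : f (Gf f a y k x) x = (f x a) ^ 2 * k := by
  have hb := hf.bilinear
  have e1 : f y x = f x y := sym hf _ _
  have e2 : f a x = f x a := sym hf _ _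
  simp only [Gf, hb.add_left, hb.smul_left, hf.alternating, e1, e2]
  grind

/-- The translate of a vector with a transvection. -/
theorem Tr_T {x x' : ι → F} (hx : Tr f L x 1) (hx' : Tr f L x' 1) : Tr f L (x' + f x' x • x) 1 := by
  obtain ⟨g, hg, e⟩ := hx
  have := Tr_conj C.hL hg hx'
  rw [e] at this
  simpa [Tf] using this

/-- `L1`. -/
theorem Z_of_perp {w : ι → F} (hw : Tr f L w 1) (hwa : f w a = 0) (hna : ∀ s : F, w ≠ s • a) (δ : F) :
    Tr f L a (δ ^ 2 + c (δ • w)) := by
  have hf := C.hf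
  have hb := hf.bilinear
  -- the translates of `w`
  have h1 : ∀ t : F, Tr f L (w + t • a) 1 := by
    intro t
    obtain ⟨y, hy1, hy2⟩ := exists_y2 hf C.ha hna 0 t
    obtain ⟨g, hg, e⟩ := C.hc y hy1
    have := Tr_conj C.hL hg hw
    rw [e, Gf_of_perp hf hwa, sym hf w y, hy2] at this
    exact this
  obtain ⟨g₁, hg₁, e₁⟩ := hw
  obtain ⟨g₂, hg₂, e₂⟩ := h1 δ
  have hG : Gg f L a (δ • w) (δ ^ 2) := by
    refine ⟨g₁ * g₂, L.mul_mem hg₁ hg₂, fun x => ?_⟩
    rw [mulVec_mul_GL, e₂, e₁]
    have haw : f a w = 0 := by rw [sym hf, hwa]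
    simp only [Tf, Gf, hb.add_left, hb.add_right, hb.smul_left, hb.smul_right, hf.alternating, hwa, haw]
    ext i
    simp only [Pi.add_apply, Pi.smul_apply, smul_eq_mul]
    grind
  have hy : f (δ • w) a = 0 := by rw [hb.smul_left, hwa, mul_zero]
  exact Tr_of_two hf hy hG (C.hc _ hy)

/-- All values of `f(x,a)` occur for centres of transvections. -/
theorem all_mu {x₀ : ι → F} (h₀ : Tr f L x₀ 1) (hμ₀ : f x₀ a ≠ 0) (μ : F) (hμ : μ ≠ 0) :
    ∃ x, Tr f L x 1 ∧ f x a = μ := by
  have hf := C.hf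
  have hb := hf.bilinear
  set μ₀ := f x₀ a with hμ₀def
  obtain ⟨y, hy1, hy2⟩ := c_surj C ((μ / μ₀ + 1) / μ₀ ^ 2)
  obtain ⟨g, hg, e⟩ := C.hc y hy1
  have h1 : Tr f L (Gf f a y (c y) x₀) 1 := by
    have := Tr_conj C.hL hg h₀
    rwa [e] at this
  have h2 := Tr_T C h₀ h1
  refine ⟨_, h2, ?_⟩
  rw [hb.add_left, hb.smul_left, f_Gf_a C hy1, f_Gf_self hf, hy2, ← hμ₀def]
  field_simp
  ring_nf
  have : (2 : F) = 0 := two0
  grind

/-- The reduction `H₀`. -/
theorem H0 {b : ι → F} (hb₀ : Tr f L b 1) (hb₁ : f b a = 1) {y : ι → F} (hy : f y a = 0) (hθ : c y ≠ 0) (s : F) :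
    Tr f L a (s ^ 2 * c y + c (s • y)) := by
  have hf := C.hf
  have hb := hf.bilinear
  obtain ⟨r, hr⟩ := exists_sqrt (c y)⁻¹
  have hr0 : r ≠ 0 := by
    rintro rfl
    rw [mul_zero] at hr
    exact inv_ne_zero hθ hr.symm
  have hr1 : r * r * c y = 1 := by rw [hr, inv_mul_cancel₀ hθ]
  obtain ⟨x, hx1, hx2⟩ := all_mu C hb₀ (by rw [hb₁]; exact one_ne_zero) r hr0
  obtain ⟨g, hg, e⟩ := C.hc y hy
  have h1 : Tr f L (Gf f a y (c y) x) 1 := by
    have := Tr_conj C.hL hg hx1
    rwa [e] at this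
  have h2 := Tr_T C hx1 h1
  rw [f_Gf_self hf, hx2, sq, hr1, one_smul] at h2
  have e2 : Gf f a y (c y) x + x = r • y + (f x y + r * c y) • a := by
    simp only [Gf, hx2]
    ext i
    simp only [Pi.add_apply, Pi.smul_apply, smul_eq_mul]
    grind
  rw [e2] at h2
  have hwa : f (r • y + (f x y + r * c y) • a) a = 0 := by
    rw [hb.add_left, hb.smul_left, hb.smul_left, hy, hf.alternating]
    simp
  have hna : ∀ t : F, r • y + (f x y + r * c y) • a ≠ t • a := by
    intro t ht
    apply hθ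
    have e3 : y = (r⁻¹ * (t + (f x y + r * c y))) • a := by
      have e4 : r • y = (t + (f x y + r * c y)) • a := by
        ext i
        have := congrFun ht i
        simp only [Pi.add_apply, Pi.smul_apply, smul_eq_mul] at this ⊢
        grind
      rw [mul_smul, ← e4, smul_smul, inv_mul_cancel₀ hr0, one_smul]
    rw [e3, c_smul_a C]
  have h3 := Z_of_perp C h2 hwa hna (s / r)
  have e5 : (s / r) • (r • y + (f x y + r * c y) • a) = s • y + ((s / r) * (f x y + r * c y)) • a := by
    rw [smul_add, smul_smul, smul_smul, div_mul_cancel₀ _ hr0]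
  have hsy : f (s • y) a = 0 := by rw [hb.smul_left, hy, mul_zero]
  rw [e5, C.hca _ _ hsy] at h3
  have e6 : (s / r) ^ 2 = s ^ 2 * c y := by
    have : c y = (r * r)⁻¹ := by
      field_simp
      rw [sq, mul_comm]
      exact hr1
    rw [this]
    field_simp
  rwa [e6] at h3

/-- If a non-trivial transvection with centre `a` lies in `L`, they all do. -/
theorem Z_all {b : ι → F} (hb₀ : Tr f L b 1) (hb₁ : f b a = 1) {z : F} (hz : z ≠ 0) (hzT : Tr f L a z) (w : F) :
    Tr f L a w := by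
  have hf := C.hf
  have hb := hf.bilinear
  by_cases hex : ∃ θ : F, θ ≠ 0 ∧ θ ≠ z
  · obtain ⟨θ, hθ0, hθz⟩ := hex
    obtain ⟨y, hy, hcy⟩ := c_surj C θ
    have hzθ : z + θ ≠ 0 := by
      intro h
      exact hθz (CharTwo.add_eq_zero.1 h).symm
    obtain ⟨r, hr⟩ := exists_sqrt (z + θ)⁻¹
    have hr0 : r ≠ 0 := by
      rintro rfl
      rw [mul_zero] at hr
      exact inv_ne_zero hzθ hr.symm
    have hr1 : r * r * (z + θ) = 1 := by rw [hr, inv_mul_cancel₀ hzθ]
    obtain ⟨x, hx1, hx2⟩ := all_mu C hb₀ (by rw [hb₁]; exact one_ne_zero) r hr0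
    obtain ⟨g₁, hg₁, e₁⟩ := hzT
    have h0 : Tr f L (x + (z * r) • a) 1 := by
      have := Tr_conj C.hL hg₁ hx1
      rw [e₁] at this
      simpa [Tf, hx2] using this
    obtain ⟨g, hg, e⟩ := C.hc y hy
    have h1 : Tr f L (Gf f a y (c y) (x + (z * r) • a)) 1 := by
      have := Tr_conj C.hL hg h0
      rwa [e] at this
    have h2 := Tr_T C hx1 h1
    have hay : f a y = 0 := by rw [sym hf, hy]
    have e1 : f (Gf f a y (c y) (x + (z * r) • a)) x = 1 := by
      have e3 : f y x = f x y := sym hf _ _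
      have e4 : f a x = r := by rw [sym hf, hx2]
      simp only [Gf, hb.add_left, hb.add_right, hb.smul_left, hb.smul_right, hf.alternating, hx2, hay, e3, e4, hcy]
      simp only [mul_zero, add_zero]
      grind
    rw [e1, one_smul] at h2
    have e2 : Gf f a y (c y) (x + (z * r) • a) + x = r • y + (z * r + f x y + r * θ) • a := by
      simp only [Gf, hb.add_left, hb.add_right, hb.smul_left, hb.smul_right, hf.alternating, hx2, hay, hcy]
      ext i
      simp only [Pi.add_apply, Pi.smul_apply, smul_eq_mul]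
      grind
    rw [e2] at h2
    have hwa : f (r • y + (z * r + f x y + r * θ) • a) a = 0 := by
      rw [hb.add_left, hb.smul_left, hb.smul_left, hy, hf.alternating]
      simp
    have hna : ∀ t : F, r • y + (z * r + f x y + r * θ) • a ≠ t • a := by
      intro t ht
      apply hθ0
      have e3 : y = (r⁻¹ * (t + (z * r + f x y + r * θ))) • a := by
        have e4 : r • y = (t + (z * r + f x y + r * θ)) • a := by
          ext i
          have := congrFun ht i
          simp only [Pi.add_apply, Pi.smul_apply, smul_eq_mul] at this ⊢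
          grind
        rw [mul_smul, ← e4, smul_smul, inv_mul_cancel₀ hr0, one_smul]
      rw [← hcy, e3, c_smul_a C]
    obtain ⟨s, hs⟩ := exists_sqrt (w / z)
    have h3 := Z_of_perp C h2 hwa hna (s / r)
    have e5 : (s / r) • (r • y + (z * r + f x y + r * θ) • a) = s • y + ((s / r) * (z * r + f x y + r * θ)) • a := by
      rw [smul_add, smul_smul, smul_smul, div_mul_cancel₀ _ hr0]
    have hsy : f (s • y) a = 0 := by rw [hb.smul_left, hy, mul_zero]
    rw [e5, C.hca _ _ hsy] at h3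
    have e6 : (s / r) ^ 2 = s ^ 2 * (z + θ) := by
      have : z + θ = (r * r)⁻¹ := by
        field_simp
        rw [sq, mul_comm]
        exact hr1
      rw [this]
      field_simp
    rw [e6] at h3
    have h4 := H0 C hb₀ hb₁ hy (by rw [hcy]; exact hθ0) s
    rw [hcy] at h4
    have h5 := Tr_mul hf h3 h4
    have e7 : s ^ 2 * (z + θ) + c (s • y) + (s ^ 2 * θ + c (s • y)) = w := by
      have : s ^ 2 = w / z := by rw [sq, hs]
      rw [this]
      field_simp
      grind
    rwa [e7] at h5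
  · push Not at hex
    by_cases hw : w = 0
    · rw [hw]
      exact Tr_zero hf a
    · rw [hex w hw]
      exact hzT

/-- If every transvection with centre `a` lies in `L`, all transvections do. -/
theorem all_of_Z {b : ι → F} (hb₀ : Tr f L b 1) (hb₁ : f b a = 1) (hZ : ∀ w, Tr f L a w) (v : ι → F) (k : F) :
    Tr f L v k := by
  have hf := C.hf
  have hb := hf.bilinear
  -- off `a^⊥`
  have off : ∀ u, f u a ≠ 0 → Tr f L u 1 := by
    intro u hu
    obtain ⟨x₀, h1, h2⟩ := all_mu C hb₀ (by rw [hb₁]; exact one_ne_zero) (f u a) hu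
    set μ := f u a with hμ
    set y := μ⁻¹ • (u + x₀) with hy
    have hya : f y a = 0 := by
      rw [hy, hb.smul_left, hb.add_left, h2, ← hμ]
      have : μ + μ = 0 := CharTwo.add_self_eq_zero μ
      rw [this, mul_zero]
    have hG : Gg f L a y (c y + (c y + f x₀ y * μ⁻¹) + f y 0) :=
      Gg_mul hf hya (fz_l hf a) (C.hc y hya) (Gg_of_Tr hf (hZ _)) |>.imp fun g hg => by
        rw [add_zero] at hg
        exact hg
    obtain ⟨g, hg, e⟩ := hG
    have := Tr_conj C.hL hg h1
    rw [e] at this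
    have e2 : Gf f a y (c y + (c y + f x₀ y * μ⁻¹) + f y 0) x₀ = u := by
      have hμ0 : μ ≠ 0 := hu
      have e3 : μ • y = u + x₀ := by rw [hy, smul_smul, mul_inv_cancel₀ hμ0, one_smul]
      have e4 : c y + (c y + f x₀ y * μ⁻¹) + f y 0 = f x₀ y * μ⁻¹ := by
        rw [fz_r hf, add_zero]
        grind
      rw [e4]
      simp only [Gf, h2, e3]
      rw [mul_assoc, inv_mul_cancel₀ hμ0, mul_one]
      ext i
      simp only [Pi.add_apply, Pi.smul_apply, smul_eq_mul]
      grind
    rwa [e2] at this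
  have all1 : ∀ x, Tr f L x 1 := by
    intro x
    by_cases hx0 : x = 0
    · subst hx0
      refine ⟨1, L.one_mem, fun y => ?_⟩
      simp [Tf]
    by_cases hxa : f x a = 0
    · -- choose `u` off both hyperplanes
      have hu : ∃ u, f u a ≠ 0 ∧ f x u = 1 := by
        by_cases hpar : ∃ s : F, x = s • a
        · obtain ⟨s, hs⟩ := hpar
          have hs0 : s ≠ 0 := by
            rintro rfl
            rw [zero_smul] at hs
            exact hx0 hs
          obtain ⟨u, hu⟩ := exists_partner hf C.ha s⁻¹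
          refine ⟨u, by rw [hu]; exact inv_ne_zero hs0, ?_⟩
          rw [hs, hb.smul_left, sym hf a u, hu, mul_inv_cancel₀ hs0]
        · push Not at hpar
          obtain ⟨u, h1, h2⟩ := exists_y2 hf C.ha hpar 1 1
          exact ⟨u, by rw [h1]; exact one_ne_zero, by rw [sym hf, h2]⟩
      obtain ⟨u, hu1, hu2⟩ := hu
      have h1 := off u hu1
      have h2 := off (x + u) (by rw [hb.add_left, hxa, zero_add]; exact hu1)
      have h3 := Tr_T C h1 h2
      have e1 : f (x + u) u = 1 := by rw [hb.add_left, hu2, hf.alternating, add_zero]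
      rw [e1, one_smul] at h3
      have e2 : x + u + u = x := by
        rw [add_assoc, vadd_self, add_zero]
      rwa [e2] at h3
    · exact off x hxa
  obtain ⟨r, hr⟩ := exists_sqrt k
  have := (Tr_smul_v hf (L := L) (κ := r) (v := v) (c := 1)).1 (all1 _)
  rw [mul_one, sq, hr] at this
  exact this

/-- The form. -/
def Qe (f : (ι → F) → (ι → F) → F) (a b : ι → F) (c : (ι → F) → F) (e : F) (x : ι → F) : F :=
  f x a * f x b + c (x + f x a • b) + e * (f x a) ^ 2

/-- The form is quadratic when the cocycle is homogeneous. -/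
theorem isQ_Qe {b : ι → F} (hb₁ : f b a = 1) (hh : ∀ y, f y a = 0 → ∀ s : F, c (s • y) = s ^ 2 * c y) (e : F) :
    IsQ f (Qe f a b c e) := by
  have hf := C.hf
  have hb := hf.bilinear
  have hperp : ∀ x, f (x + f x a • b) a = 0 := by
    intro x
    rw [hb.add_left, hb.smul_left, hb₁, mul_one, CharTwo.add_self_eq_zero]
  constructor
  · intro x y
    have h1 := C.hcoc _ _ (hperp x) (hperp y)
    have e1 : x + y + f (x + y) a • b = x + f x a • b + (y + f y a • b) := by
      rw [hb.add_left, add_smul]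
      abel
    have e2 : f (x + f x a • b) (y + f y a • b) = f x y + f y a * f x b + f x a * f y b := by
      have hbb : f b b = 0 := hf.alternating b
      have hbx : f b y = f y b := sym hf _ _
      simp only [hb.add_left, hb.add_right, hb.smul_left, hb.smul_right, hbb, hbx]
      ring
    unfold Qe
    rw [e1, h1, e2]
    simp only [hb.add_left]
    grind
  · intro s x
    have e1 : s • x + f (s • x) a • b = s • (x + f x a • b) := by
      rw [hb.smul_left, smul_add, smul_smul]
    unfold Qe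
    rw [e1, hh _ (hperp x)]
    simp only [hb.smul_left]
    ring

omit C in
/-- Preservation of a form from a spanning set. -/
theorem Q_pres {Q : (ι → F) → F} (hf : IsSymplecticForm f) (hQ : IsQ f Q) {g : GL ι F}
    (hg : ∀ x y, f (g ⋆ x) (g ⋆ y) = f x y) (S : Set (ι → F)) (hS : Submodule.span F S = ⊤)
    (h : ∀ x ∈ S, Q (g ⋆ x) = Q x) (x : ι → F) : Q (g ⋆ x) = Q x := by
  have hx : x ∈ Submodule.span F S := by rw [hS]; trivial
  induction hx using Submodule.span_induction with
  | mem x hx => exact h x hx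
  | zero =>
    have := hQ.smul 0 (0 : ι → F)
    simp only [zero_smul, mulVec_zero]
  | add x y _ _ hx hy =>
    rw [mulVec_add, hQ.add, hQ.add, hx, hy, hg]
  | smul s x _ hx =>
    rw [mulVec_smul, hQ.smul, hQ.smul, hx]

/-- The span of a non-trivial invariant set. -/
theorem span_top (S : Set (ι → F)) (hS : ∀ g ∈ L, ∀ x ∈ S, g ⋆ x ∈ S) (h0 : ∃ x ∈ S, x ≠ 0) :
    Submodule.span F S = ⊤ := by
  have hW : Submodule.span F S = ⊥ ∨ Submodule.span F S = ⊤ := by
    apply C.hirr
    intro g hg w hw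
    induction hw using Submodule.span_induction with
    | mem x hx => exact Submodule.subset_span (hS g hg x hx)
    | zero => rw [mulVec_zero]; exact Submodule.zero_mem _
    | add x y _ _ hx hy => rw [mulVec_add]; exact Submodule.add_mem _ hx hy
    | smul s x _ hx => rw [mulVec_smul]; exact Submodule.smul_mem _ _ hx
  rcases hW with h | h
  · obtain ⟨x, hx, hx0⟩ := h0
    have : x ∈ Submodule.span F S := Submodule.subset_span hx
    rw [h, Submodule.mem_bot] at this
    exact absurd this hx0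
  · exact h

/-- The case where no non-trivial transvection with centre `a` lies in `L`. -/
theorem form_of_Z0 {b : ι → F} (hb₀ : Tr f L b 1) (hb₁ : f b a = 1) (hZ : ∀ z, z ≠ 0 → ¬ Tr f L a z) :
    ∃ Q : (ι → F) → F, IsQ f Q ∧ Q a = 0 ∧ (∀ y, f y a = 0 → Q y = c y) ∧ ∀ g ∈ L, ∀ x, Q (g ⋆ x) = Q x := by
  have hf := C.hf
  have hb := hf.bilinear
  have h0 : ∀ z, Tr f L a z → z = 0 := fun z hz => by
    by_contra h
    exact hZ z h hz
  -- homogeneity
  have hh1 : ∀ y, f y a = 0 → c y ≠ 0 → ∀ s : F, c (s • y) = s ^ 2 * c y := by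
    intro y hy hθ s
    have := h0 _ (H0 C hb₀ hb₁ hy hθ s)
    grind
  have hh : ∀ y, f y a = 0 → ∀ s : F, c (s • y) = s ^ 2 * c y := by
    intro y hy s
    by_cases hθ : c y = 0
    · rw [hθ, mul_zero]
      by_contra hne
      have hs0 : s ≠ 0 := by
        rintro rfl
        rw [zero_smul, c_zero C] at hne
        exact hne rfl
      have hsy : f (s • y) a = 0 := by rw [hb.smul_left, hy, mul_zero]
      have := hh1 _ hsy hne s⁻¹
      rw [smul_smul, inv_mul_cancel₀ hs0, one_smul, hθ] at this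
      have h3 : s⁻¹ ^ 2 * c (s • y) ≠ 0 := mul_ne_zero (pow_ne_zero _ (inv_ne_zero hs0)) hne
      exact h3 this.symm
    · exact hh1 y hy hθ s
  have hQ := isQ_Qe C hb₁ hh 1
  set Q := Qe f a b c 1 with hQdef
  have hQa : Q a = 0 := by
    simp only [hQdef, Qe, hf.alternating, zero_smul, add_zero, mul_zero, zero_mul]
    have := c_smul_a C 1
    rw [one_smul] at this
    rw [this]
    simp
  have hQy : ∀ y, f y a = 0 → Q y = c y := by
    intro y hy
    simp only [hQdef, Qe, hy, zero_smul, add_zero, zero_mul]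
    simp
  have hQb : Q b = 1 := by
    simp only [hQdef, Qe, hb₁, hf.alternating, one_smul, vadd_self, c_zero C]
    simp
  -- the elements of `X` preserve `Q`
  have hQG : ∀ y x, f y a = 0 → Q (Gf f a y (c y) x) = Q x := by
    intro y x hy
    have e1 : Gf f a y (c y) x = x + ((f x a) • y + (f x y + c y * f x a) • a) := by
      simp only [Gf]
      ext i
      simp only [Pi.add_apply, Pi.smul_apply, smul_eq_mul]
      grind
    have hya : f ((f x a) • y + (f x y + c y * f x a) • a) a = 0 := by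
      rw [hb.add_left, hb.smul_left, hb.smul_left, hy, hf.alternating]
      simp
    rw [e1, hQ.add, hQy _ hya, C.hca _ _ (by rw [hb.smul_left, hy, mul_zero]), hh _ hy]
    simp only [hb.add_right, hb.smul_right, hf.alternating]
    grind
  -- the centres
  have hQD : ∀ x, x ≠ 0 → Tr f L x 1 → Q x = 1 := by
    intro x hx0 hx
    by_cases hxa : f x a = 0
    · have hna : ∀ s : F, x ≠ s • a := by
        intro s hs
        have hs0 : s ≠ 0 := by
          rintro rfl
          rw [zero_smul] at hs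
          exact hx0 hs
        rw [hs] at hx
        have := (Tr_smul_v hf).1 hx
        have h3 := h0 _ this
        rw [mul_one] at h3
        exact hs0 (by simpa using h3)
      have h3 := Z_of_perp C hx hxa hna 1
      rw [one_smul] at h3
      have h4 := h0 _ h3
      rw [hQy x hxa]
      rw [one_pow] at h4
      exact (CharTwo.add_eq_zero.1 h4).symm
    · set μ := f x a with hμ
      obtain ⟨y, hy1, hy2⟩ := twist_surj C (b + μ⁻¹ • x) ((μ⁻¹ + f b x) * μ⁻¹)
      obtain ⟨g, hg, e⟩ := C.hc y hy1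
      have h1 : Tr f L (Gf f a y (c y) b) 1 := by
        have := Tr_conj C.hL hg hb₀
        rwa [e] at this
      set b' := Gf f a y (c y) b with hb'
      have hb'a : f b' a = 1 := by rw [hb', f_Gf_a C hy1, hb₁]
      have hb'Q : Q b' = 1 := by rw [hb', hQG y b hy1, hQb]
      have hb'x : f b' x = μ⁻¹ := by
        have e3 : f x a = μ := rfl
        have e4 : f a x = μ := by rw [sym hf]
        have e5 : f y x = f x y := sym hf _ _
        simp only [hb', Gf, hb₁, one_smul, one_mul, hb.add_left, hb.smul_left, e4]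
        have e6 : f y (b + μ⁻¹ • x) = f y b + μ⁻¹ * f y x := by
          rw [hb.add_right, hb.smul_right]
        rw [e6] at hy2
        have e7 : f b y = f y b := sym hf _ _
        rw [e7]
        have hμ0 : μ ≠ 0 := hxa
        have h8 : c y + (f y b + μ⁻¹ * f y x) = (μ⁻¹ + f b x) * μ⁻¹ := hy2
        have h9 : μ * (c y + (f y b + μ⁻¹ * f y x)) = μ⁻¹ + f b x := by
          rw [h8]
          field_simp
        have h10 : μ * c y + μ * f y b + f y x = μ⁻¹ + f b x := by
          rw [← h9]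
          field_simp
          ring
        grind
      have h2 := Tr_T C hx h1
      rw [hb'x] at h2
      set w := b' + μ⁻¹ • x with hw
      have hwa : f w a = 0 := by
        rw [hw, hb.add_left, hb.smul_left, hb'a, ← hμ, inv_mul_cancel₀ hxa]
        exact CharTwo.add_self_eq_zero 1
      have hwb' : f w b' = μ⁻¹ * μ⁻¹ := by
        rw [hw, hb.add_left, hb.smul_left, hf.alternating, zero_add, sym hf x b', hb'x]
      have hw0 : w ≠ 0 := by
        intro h
        rw [h, fz_l hf] at hwb'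
        exact mul_ne_zero (inv_ne_zero hxa) (inv_ne_zero hxa) hwb'.symm
      have hna : ∀ s : F, w ≠ s • a := by
        intro s hs
        have hs0 : s ≠ 0 := by
          rintro rfl
          rw [zero_smul] at hs
          exact hw0 hs
        rw [hs] at h2
        have := (Tr_smul_v hf).1 h2
        have h3 := h0 _ this
        rw [mul_one] at h3
        exact hs0 (by simpa using h3)
      have h3 := Z_of_perp C h2 hwa hna 1
      rw [one_smul, one_pow] at h3
      have h4 := h0 _ h3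
      have hcw : c w = 1 := (CharTwo.add_eq_zero.1 h4).symm
      have h5 : Q w = 1 := by rw [hQy w hwa, hcw]
      rw [hw, hQ.add, hb'Q, hQ.smul, hb.smul_right, hb'x] at h5
      have hμ0 : μ ≠ 0 := hxa
      have h6 : 1 + μ⁻¹ ^ 2 * Q x + μ⁻¹ * μ⁻¹ = 1 := h5
      have h7 : μ⁻¹ ^ 2 * (Q x + 1) = 0 := by
        have : μ⁻¹ ^ 2 * (Q x + 1) = (1 + μ⁻¹ ^ 2 * Q x + μ⁻¹ * μ⁻¹) + 1 := by
          have h8 : (1 : F) + 1 = 0 := CharTwo.add_self_eq_zero 1
          rw [sq]
          linear_combination -h8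
        rw [this, h6]
        exact CharTwo.add_self_eq_zero 1
      have h8 : Q x + 1 = 0 := by
        rcases mul_eq_zero.1 h7 with h9 | h9
        · exact absurd h9 (pow_ne_zero _ (inv_ne_zero hμ0))
        · exact h9
      exact CharTwo.add_eq_zero.1 h8
  refine ⟨Q, hQ, hQa, hQy, fun g hg => ?_⟩
  set D : Set (ι → F) := {x | x ≠ 0 ∧ Tr f L x 1} with hD
  have hb0 : b ≠ 0 := by
    rintro rfl
    rw [fz_l hf] at hb₁
    exact zero_ne_one hb₁
  have hDs : ∀ g ∈ L, ∀ x ∈ D, g ⋆ x ∈ D := by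
    rintro g hg x ⟨hx0, hx⟩
    refine ⟨?_, Tr_conj C.hL hg hx⟩
    intro h
    apply hx0
    have := inv_mulVec_GL g x
    rw [h, mulVec_zero] at this
    exact this.symm
  have hspan := span_top C D hDs ⟨b, ⟨hb0, hb₀⟩, hb0⟩
  refine Q_pres hf hQ (C.hL g hg) D hspan ?_
  rintro x ⟨hx0, hx⟩
  obtain ⟨h1, h2⟩ := hDs g hg x ⟨hx0, hx⟩
  rw [hQD _ h1 h2, hQD x hx0 hx]

/-- Theorem A. -/
theorem thmA (hv : ∃ v k, v ≠ 0 ∧ k ≠ 0 ∧ Tr f L v k) :
    (∀ v k, Tr f L v k) ∨
    ∃ Q : (ι → F) → F, IsQ f Q ∧ Q a = 0 ∧ (∀ y, f y a = 0 → Q y = c y) ∧ ∀ g ∈ L, ∀ x, Q (g ⋆ x) = Q x := by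
  have hf := C.hf
  have hb := hf.bilinear
  obtain ⟨v, k, hv0, hk, hT⟩ := hv
  obtain ⟨r, hr⟩ := exists_sqrt k⁻¹
  have hr0 : r ≠ 0 := by
    rintro rfl
    rw [mul_zero] at hr
    exact inv_ne_zero hk hr.symm
  -- a centre with a transvection of scale `1`
  obtain ⟨t, ht⟩ := exists_sqrt k
  have ht0 : t ≠ 0 := by
    rintro rfl
    rw [mul_zero] at ht
    exact hk ht.symm
  have h1 : Tr f L (t • v) 1 := by
    refine (Tr_smul_v hf).2 ?_
    rw [mul_one, sq, ht]
    exact hT
  set D : Set (ι → F) := {x | x ≠ 0 ∧ Tr f L x 1} with hD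
  have hDs : ∀ g ∈ L, ∀ x ∈ D, g ⋆ x ∈ D := by
    rintro g hg x ⟨hx0, hx⟩
    refine ⟨?_, Tr_conj C.hL hg hx⟩
    intro h
    apply hx0
    have := inv_mulVec_GL g x
    rw [h, mulVec_zero] at this
    exact this.symm
  obtain ⟨x₀, hx₀, hne⟩ := exists_off C.hf C.hirr D hDs ⟨t • v, ⟨smul_ne_zero ht0 hv0, h1⟩, smul_ne_zero ht0 hv0⟩ C.ha
  obtain ⟨b, hb₀, hb₁⟩ := all_mu C hx₀.2 hne 1 one_ne_zero
  by_cases hZ : ∃ z, z ≠ 0 ∧ Tr f L a z
  · obtain ⟨z, hz, hzT⟩ := hZ
    exact Or.inl (all_of_Z C hb₀ hb₁ (Z_all C hb₀ hb₁ hz hzT))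
  · push Not at hZ
    exact Or.inr (form_of_Z0 C hb₀ hb₁ hZ)

end Cx

end Cfsg.Agent.Lib.H97XB
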