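import Mathlib
import Cfsg.Agent.Lib.H97XB

/-!
# The case of no transvection: the orbit of the centre, the vanishing of the cocycle on orthogonal pairs
-/

set_option autoImplicit false
set_option linter.unusedSectionVars false
set_option linter.unusedVariables false
set_option linter.unusedSimpArgs false

namespace Cfsg.Agent.Lib.H97XC

open Matrix Cfsg Cfsg.Geo Cfsg.Agent.Lib.H97XA Cfsg.Agent.Lib.H97XB
open Cfsg.Agent.Lib.SympT (GL_ext mulVec_mul_GL mulVec_inv_GL inv_mulVec_GL)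

local notation:70 g:71 " ⋆ " x:70 => Matrix.mulVec (Units.val g) x

variable {ι : Type} [Fintype ι] [DecidableEq ι] {F : Type*} [Field F] [CharP F 2] [Fintype F]
  {f : (ι → F) → (ι → F) → F}

/-- The scalar multiples of the orbit of `a`. -/
def Ga (L : Subgroup (GL ι F)) (a v : ι → F) : Prop :=
  ∃ κ : F, κ ≠ 0 ∧ ∃ ℓ ∈ L, v = κ • (ℓ ⋆ a)

/-- Two commuting transvections with scales. -/
def T2 (f : (ι → F) → (ι → F) → F) (L : Subgroup (GL ι F)) (u : ι → F) (p : F) (v : ι → F) (q : F) : Prop :=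
  ∃ g ∈ L, ∀ x, g ⋆ x = x + (p * f x u) • u + (q * f x v) • v

/-- A product of two transvections of scale one. -/
def Tw (f : (ι → F) → (ι → F) → F) (L : Subgroup (GL ι F)) (u v : ι → F) : Prop :=
  ∃ g ∈ L, ∀ x, g ⋆ x = Tf f u 1 (Tf f v 1 x)

variable {L : Subgroup (GL ι F)} {a : ι → F} {c : (ι → F) → F}

theorem GL_inj (g : GL ι F) {x : ι → F} (h : g ⋆ x = 0) : x = 0 := by
  have := inv_mulVec_GL g x
  rw [h, mulVec_zero] at this
  exact this.symm

theorem GL_inj' (g : GL ι F) {x y : ι → F} (h : g ⋆ x = g ⋆ y) : x = y := by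
  have h1 := inv_mulVec_GL g x
  rw [h, inv_mulVec_GL] at h1
  exact h1.symm

/-- The hypotheses for this file. -/
structure NT (f : (ι → F) → (ι → F) → F) (L : Subgroup (GL ι F)) (a : ι → F) (c : (ι → F) → F) : Prop where
  C : Cx f L a c
  hnt : ∀ v k, v ≠ 0 → k ≠ 0 → ¬ Tr f L v k

namespace NT

variable (N : NT f L a c)
include N

theorem Ga_self : Ga L a a := ⟨1, one_ne_zero, 1, L.one_mem, by simp⟩

omit N in
theorem Ga_smul {v : ι → F} (hv : Ga L a v) {s : F} (hs : s ≠ 0) : Ga L a (s • v) := by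
  obtain ⟨κ, hκ, ℓ, hℓ, rfl⟩ := hv
  exact ⟨s * κ, mul_ne_zero hs hκ, ℓ, hℓ, by rw [mul_smul]⟩

omit N in
theorem Ga_L {v : ι → F} (hv : Ga L a v) {g : GL ι F} (hg : g ∈ L) : Ga L a (g ⋆ v) := by
  obtain ⟨κ, hκ, ℓ, hℓ, rfl⟩ := hv
  refine ⟨κ, hκ, g * ℓ, L.mul_mem hg hℓ, ?_⟩
  rw [mulVec_smul, mulVec_mul_GL]

theorem Ga_ne {v : ι → F} (hv : Ga L a v) : v ≠ 0 := by
  obtain ⟨κ, hκ, ℓ, hℓ, rfl⟩ := hv
  intro h
  rcases smul_eq_zero.1 h with h1 | h1
  · exact hκ h1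
  · exact N.C.ha (GL_inj ℓ h1)

/-- Lifts exist for all vectors of `Γ`. -/
theorem Ga_lift {v : ι → F} (hv : Ga L a v) {y : ι → F} (hy : f y v = 0) : ∃ k, Gg f L v y k := by
  have hf := N.C.hf
  have hb := hf.bilinear
  obtain ⟨κ, hκ, ℓ, hℓ, rfl⟩ := hv
  set y' := ((ℓ⁻¹ : GL ι F)) ⋆ (κ • y) with hy'
  have h1 : f y' a = 0 := by
    rw [hy', f_inv_left (N.C.hL ℓ hℓ), hb.smul_left]
    rw [hb.smul_right] at hy
    rcases mul_eq_zero.1 hy with h | h
    · exact absurd h hκ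
    · rw [h, mul_zero]
  have h2 := Gg_conj N.C.hL hℓ (N.C.hc y' h1)
  rw [hy', mulVec_inv_GL, ← hy'] at h2
  refine ⟨(κ ^ 2)⁻¹ * c y', (Gg_smul_v hf).2 ?_⟩
  rwa [mul_inv_cancel_left₀ (pow_ne_zero _ hκ)]

/-- Uniqueness of lifts. -/
theorem uniq {v y : ι → F} {k k' : F} (hv : v ≠ 0) (hy : f y v = 0) (h : Gg f L v y k) (h' : Gg f L v y k') :
    k = k' := by
  by_contra hne
  have h1 : k + k' ≠ 0 := fun h2 => hne (CharTwo.add_eq_zero.1 h2)
  exact N.hnt v _ hv h1 (Tr_of_two N.C.hf hy h h')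

/-- The cocycle of a vector of `Γ`. -/
theorem exists_coc {v : ι → F} (hv : Ga L a v) :
    ∃ γ : (ι → F) → F, (∀ y, f y v = 0 → Gg f L v y (γ y)) ∧
      (∀ y y', f y v = 0 → f y' v = 0 → γ (y + y') = γ y + γ y' + f y y') ∧
      (∀ y (s : F), f y v = 0 → γ (y + s • v) = γ y) := by
  classical
  have hf := N.C.hf
  have hb := hf.bilinear
  have hv0 := Ga_ne N hv
  let γ : (ι → F) → F := fun y => if h : f y v = 0 then (Ga_lift N hv h).choose else 0
  have hγ : ∀ y, f y v = 0 → Gg f L v y (γ y) := by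
    intro y hy
    simp only [γ, dif_pos hy]
    exact (Ga_lift N hv hy).choose_spec
  refine ⟨γ, hγ, ?_, ?_⟩
  · intro y y' hy hy'
    have hyy' : f (y + y') v = 0 := by rw [hb.add_left, hy, hy', add_zero]
    exact uniq N hv0 hyy' (hγ _ hyy') (Gg_mul hf hy hy' (hγ y hy) (hγ y' hy'))
  · intro y s hy
    have hys : f (y + s • v) v = 0 := by
      rw [hb.add_left, hb.smul_left, hf.alternating, hy, mul_zero, add_zero]
    exact uniq N hv0 hys (hγ _ hys) ((Gg_add_smul hf).2 (hγ y hy))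

/-- `Γ` is closed under adding an orthogonal vector of `Γ`. -/
theorem Ga_add {u v : ι → F} (hu : Ga L a u) (hv : Ga L a v) (huv : f v u = 0) (hind : ∀ s : F, v ≠ s • u) (s : F) :
    Ga L a (v + s • u) := by
  have hf := N.C.hf
  obtain ⟨y, h1, h2⟩ := exists_y2 hf (Ga_ne N hu) hind 0 s
  obtain ⟨k, g, hg, e⟩ := Ga_lift N hu h1
  have := Ga_L hv hg
  rwa [e, Gf_of_perp hf huv, sym hf v y, h2] at this

/-- The product of the two commuting elements. -/
theorem T2_of {u v : ι → F} {s p q : F} (huv : f v u = 0) (h1 : Gg f L u (s • v) p) (h2 : Gg f L v (s • u) q) :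
    T2 f L u p v q := by
  have hf := N.C.hf
  have hb := hf.bilinear
  have huv' : f u v = 0 := by rw [sym hf, huv]
  obtain ⟨g₁, hg₁, e₁⟩ := h1
  obtain ⟨g₂, hg₂, e₂⟩ := h2
  refine ⟨g₁ * g₂, L.mul_mem hg₁ hg₂, fun x => ?_⟩
  rw [mulVec_mul_GL, e₂, e₁]
  simp only [Gf, hb.add_left, hb.add_right, hb.smul_left, hb.smul_right, hf.alternating, huv, huv']
  ext i
  simp only [Pi.add_apply, Pi.smul_apply, smul_eq_mul]
  grind

/-- The vanishing of a commuting pair of scales. -/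
theorem T2_zero_l {u v : ι → F} {q : F} (hv : v ≠ 0) (h : T2 f L u 0 v q) : q = 0 := by
  by_contra hq
  obtain ⟨g, hg, e⟩ := h
  exact N.hnt v q hv hq ⟨g, hg, fun x => by rw [e]; simp [Tf]⟩

theorem T2_zero_r {u v : ι → F} {p : F} (hu : u ≠ 0) (h : T2 f L u p v 0) : p = 0 := by
  by_contra hp
  obtain ⟨g, hg, e⟩ := h
  exact N.hnt u p hu hp ⟨g, hg, fun x => by rw [e]; simp [Tf]⟩

/-- Conjugating a pair of commuting transvections by an element fixing one centre. -/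
theorem T2_shift {u v : ι → F} {p q k : F} {y : ι → F} (huv : f v u = 0) (hy : f y u = 0)
    (h : T2 f L u p v q) (hG : Gg f L u y k) : Gg f L u ((q * f y v) • v) (q * (f y v) ^ 2) := by
  have hf := N.C.hf
  have hb := hf.bilinear
  have huv' : f u v = 0 := by rw [sym hf, huv]
  have huy : f u y = 0 := by rw [sym hf, hy]
  obtain ⟨g₀, hg₀, e₀⟩ := hG
  obtain ⟨g, hg, e⟩ := h
  set s₀ := f y v with hs₀
  have e1 : g₀ ⋆ u = u := by
    rw [e₀, Gf_of_perp hf (hf.alternating u), huy, zero_smul, add_zero]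
  have e2 : g₀ ⋆ v = v + s₀ • u := by
    rw [e₀, Gf_of_perp hf huv, sym hf v y]
  refine ⟨g * (g₀ * g * g₀⁻¹), L.mul_mem hg (L.mul_mem (L.mul_mem hg₀ hg) (L.inv_mem hg₀)), fun x => ?_⟩
  have e3 : ∀ x, (g₀ * g * g₀⁻¹) ⋆ x = x + (p * f x u) • u + (q * f x (v + s₀ • u)) • (v + s₀ • u) := by
    intro x
    rw [mulVec_mul_GL, mulVec_mul_GL, e]
    simp only [mulVec_add, mulVec_smul, mulVec_inv_GL, f_inv_left (N.C.hL g₀ hg₀), e1, e2]
  rw [mulVec_mul_GL, e3, e]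
  simp only [Gf, hb.add_left, hb.add_right, hb.smul_left, hb.smul_right, hf.alternating, huv, huv']
  ext i
  simp only [Pi.add_apply, Pi.smul_apply, smul_eq_mul]
  grind

/-- The key formula `M = T`. -/
theorem M_eq {e₁ e₂ y : ι → F} (h12 : f e₁ e₂ = 1) (h1 : f y e₁ = 0) (h2 : f y e₂ = 0)
    (g1 : Gg f L e₁ y 0) (g2 : Gg f L e₂ y 0) (g3 : Gg f L (e₁ + e₂) y 0) : Tr f L y 1 := by
  have hf := N.C.hf
  have hb := hf.bilinear
  obtain ⟨a₁, ha₁, e₁'⟩ := g1
  obtain ⟨a₂, ha₂, e₂'⟩ := g2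
  obtain ⟨a₃, ha₃, e₃'⟩ := g3
  have h21 : f e₂ e₁ = 1 := by rw [sym hf, h12]
  have h1' : f e₁ y = 0 := by rw [sym hf, h1]
  have h2' : f e₂ y = 0 := by rw [sym hf, h2]
  refine ⟨a₁ * (a₂ * a₃), L.mul_mem ha₁ (L.mul_mem ha₂ ha₃), fun x => ?_⟩
  rw [mulVec_mul_GL, mulVec_mul_GL, e₃', e₂', e₁']
  simp only [Gf, Tf, hb.add_left, hb.add_right, hb.smul_left, hb.smul_right, hf.alternating, h12, h21, h1, h2, h1', h2',
    zero_mul, mul_zero, add_zero, zero_add, smul_zero, zero_smul]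
  ext i
  simp only [Pi.add_apply, Pi.smul_apply, smul_eq_mul]
  grind

/-- `P1` over a field with more than two elements. -/
theorem P1a (hq : ∃ t : F, t ≠ 0 ∧ t ≠ 1) {u v : ι → F} (hu : Ga L a u) (hv : Ga L a v) (huv : f v u = 0)
    (hind : ∀ s : F, v ≠ s • u) (s : F) : Gg f L u (s • v) 0 := by
  have hf := N.C.hf
  have hb := hf.bilinear
  have hu0 := Ga_ne N hu
  have hv0 := Ga_ne N hv
  have huv' : f u v = 0 := by rw [sym hf, huv]
  obtain ⟨α₀, hα₀, hαc, -⟩ := exists_coc N hu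
  obtain ⟨β₀, hβ₀, hβc, -⟩ := exists_coc N hv
  have hsv : ∀ s : F, f (s • v) u = 0 := fun s => by rw [hb.smul_left, huv, mul_zero]
  have hsu : ∀ s : F, f (s • u) v = 0 := fun s => by rw [hb.smul_left, huv', mul_zero]
  set α : F → F := fun s => α₀ (s • v) with hα
  set β : F → F := fun s => β₀ (s • u) with hβ
  have hαβ : ∀ s, T2 f L u (α s) v (β s) := fun s => T2_of N huv (hα₀ _ (hsv s)) (hβ₀ _ (hsu s))
  have hβadd : ∀ s t, β (s + t) = β s + β t := by
    intro s t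
    simp only [hβ, add_smul]
    rw [hβc _ _ (hsu s) (hsu t), hb.smul_left, hb.smul_right, hf.alternating]
    simp
  have hα0 : ∀ s, α s = 0 → β s = 0 := fun s h => T2_zero_l N hv0 (by have := hαβ s; rwa [h] at this)
  have hβ0 : ∀ s, β s = 0 → α s = 0 := fun s h => T2_zero_r N hu0 (by have := hαβ s; rwa [h] at this)
  have key : ∀ s s₀, α (β s * s₀) = β s * s₀ ^ 2 := by
    intro s s₀
    obtain ⟨y, h1, h2⟩ := exists_y2 hf hu0 hind 0 s₀
    obtain ⟨k, hk⟩ := Ga_lift N hu h1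
    have h3 := T2_shift N huv h1 (hαβ s) hk
    rw [h2] at h3
    have h4 : f ((β s * s₀) • v) u = 0 := hsv _
    exact uniq N hu0 h4 (hα₀ _ h4) h3
  have hβall : ∀ s, β s = 0 := by
    by_contra hcon
    push Not at hcon
    obtain ⟨s₁, hs₁⟩ := hcon
    have h1 : ∀ t, α t = t ^ 2 / β s₁ := by
      intro t
      have := key s₁ (t / β s₁)
      rw [mul_div_cancel₀ _ hs₁] at this
      rw [this]
      field_simp
    have h2 : ∀ t, t ≠ 0 → β t ≠ 0 := by
      intro t ht h3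
      have h4 := hβ0 t h3
      rw [h1] at h4
      exact div_ne_zero (pow_ne_zero _ ht) hs₁ h4
    have h3 : ∀ t, t ≠ 0 → β t = β 1 := by
      intro t ht
      have e1 := key t (β t)⁻¹
      have e2 := key 1 (β 1)⁻¹
      rw [mul_inv_cancel₀ (h2 t ht)] at e1
      rw [mul_inv_cancel₀ (h2 1 one_ne_zero)] at e2
      rw [e1] at e2
      have h5 := h2 t ht
      have h6 := h2 1 one_ne_zero
      field_simp at e2
      exact e2.symm
    obtain ⟨t, ht0, ht1⟩ := hq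
    have h4 : t + 1 ≠ 0 := fun h => ht1 (CharTwo.add_eq_zero.1 h)
    have h5 := hβadd t 1
    rw [h3 _ h4, h3 _ ht0, CharTwo.add_self_eq_zero] at h5
    exact h2 1 one_ne_zero h5
  have := hα₀ _ (hsv s)
  rwa [show α₀ (s • v) = 0 from hβ0 s (hβall s)] at this

/-- Conjugation of products of two transvections. -/
theorem Tw_conj {u v : ι → F} {ℓ : GL ι F} (hℓ : ℓ ∈ L) (h : Tw f L u v) : Tw f L (ℓ ⋆ u) (ℓ ⋆ v) := by
  obtain ⟨g, hg, e⟩ := h
  refine ⟨ℓ * g * ℓ⁻¹, L.mul_mem (L.mul_mem hℓ hg) (L.inv_mem hℓ), fun x => ?_⟩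
  rw [mulVec_mul_GL, mulVec_mul_GL, e]
  have hb := N.C.hf.bilinear
  simp only [Tf, mulVec_add, mulVec_smul, mulVec_inv_GL, hb.add_left, hb.smul_left, f_inv_left (N.C.hL ℓ hℓ),
    N.C.hL ℓ hℓ]

theorem Tf_Tf_self (v x : ι → F) (hf : IsSymplecticForm f) : Tf f v 1 (Tf f v 1 x) = x := by
  rw [Tf_mul hf, CharTwo.add_self_eq_zero]
  simp [Tf]

omit N in
theorem Tw_symm (hf : IsSymplecticForm f) {u v : ι → F} (h : Tw f L u v) : Tw f L v u := by
  obtain ⟨g, hg, e⟩ := h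
  refine ⟨g⁻¹, L.inv_mem hg, fun x => ?_⟩
  have h1 := e (Tf f v 1 (Tf f u 1 x))
  rw [Tf_Tf_self' hf, Tf_Tf_self' hf] at h1
  have h2 := inv_mulVec_GL g (Tf f v 1 (Tf f u 1 x))
  rw [h1] at h2
  exact h2
where
  Tf_Tf_self' {v x : ι → F} (hf : IsSymplecticForm f) : Tf f v 1 (Tf f v 1 x) = x := by
    rw [Tf_mul hf, CharTwo.add_self_eq_zero]
    simp [Tf]

omit N in
theorem Tw_trans (hf : IsSymplecticForm f) {u v w : ι → F} (h : Tw f L u v) (h' : Tw f L v w) : Tw f L u w := by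
  obtain ⟨g, hg, e⟩ := h
  obtain ⟨g', hg', e'⟩ := h'
  refine ⟨g * g', L.mul_mem hg hg', fun x => ?_⟩
  rw [mulVec_mul_GL, e', e, Tw_symm.Tf_Tf_self' hf]

/-- Non-commuting products of two transvections do not occur in rank at least three. -/
theorem no_Tw {u w : ι → F} (hu : Ga L a u) (hw : Ga L a w) (huw : f u w = 1) (hcard : 6 ≤ Fintype.card ι)
    (h : Tw f L u w) : False := by
  have hf := N.C.hf
  have hb := hf.bilinear
  have hwu : f w u = 1 := by rw [sym hf, huw]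
  obtain ⟨γ, hγ, hγc, -⟩ := exists_coc N hu
  obtain ⟨p, q, h1, h2, h3, h4, h5⟩ := hyp_pair1 hf huw (by omega)
  have hp' : f u p = 0 := by rw [sym hf, h1]
  have hq' : f u q = 0 := by rw [sym hf, h3]
  have hwp : f w p = 0 := by rw [sym hf, h2]
  have hwq : f w q = 0 := by rw [sym hf, h4]
  obtain ⟨y₁, y₂, e1, e2, e3, e4, e5, e6, e7, e8, e9⟩ := hyp_pair2 hf huw h5 hp' hq' hwp hwq hcard
  obtain ⟨s, t, hst⟩ := coc_surj hf hγc h1 h3 h5 (γ y₁)
  set x := s • p + t • q with hx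
  have hxu : f x u = 0 := by rw [hx, hb.add_left, hb.smul_left, hb.smul_left, h1, h3]; simp
  have hxw : f x w = 0 := by rw [hx, hb.add_left, hb.smul_left, hb.smul_left, h2, h4]; simp
  set y := x + y₁ with hy
  have hyu : f y u = 0 := by rw [hy, hb.add_left, hxu, e1, add_zero]
  have hyw : f y w = 0 := by rw [hy, hb.add_left, hxw, e2, add_zero]
  have hγy : γ y = 0 := by
    rw [hy, hγc _ _ hxu e1, hst, CharTwo.add_self_eq_zero, zero_add, hx, hb.add_left, hb.smul_left, hb.smul_left,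
      sym hf p y₁, sym hf q y₁, e3, e4]
    simp
  have hy0 : y ≠ 0 := by
    intro h0
    have : f y y₂ = 1 := by
      rw [hy, hb.add_left, e9, hx, hb.add_left, hb.smul_left, hb.smul_left, sym hf p y₂, sym hf q y₂, e7, e8]
      simp
    rw [h0, fz_l hf] at this
    exact zero_ne_one this
  obtain ⟨ρ, hρ, eρ⟩ := h
  have hρu : ρ ⋆ u = w := by
    rw [eρ]
    simp only [Tf, hb.add_left, hb.smul_left, huw, hwu, hf.alternating]
    ext i
    simp only [Pi.add_apply, Pi.smul_apply, smul_eq_mul]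
    grind
  have hρw : ρ ⋆ w = u + w := by
    rw [eρ]
    simp only [Tf, hb.add_left, hb.smul_left, huw, hwu, hf.alternating]
    ext i
    simp only [Pi.add_apply, Pi.smul_apply, smul_eq_mul]
    grind
  have hρy : ρ ⋆ y = y := by
    rw [eρ]
    simp only [Tf, hb.add_left, hb.smul_left, hyu, hyw]
    simp
  have g1 := hγ y hyu
  rw [hγy] at g1
  have g2 := Gg_conj N.C.hL hρ g1
  rw [hρu, hρy] at g2
  have g3 := Gg_conj N.C.hL hρ g2
  rw [hρw, hρy] at g3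
  exact N.hnt y 1 hy0 one_ne_zero (M_eq N huw hyu hyw g1 g2 g3)

/-- `P1` over the field with two elements, rank at least three. -/
theorem P1b (hq : ∀ t : F, t = 0 ∨ t = 1) (hcard : 6 ≤ Fintype.card ι) {u v : ι → F} (hu : Ga L a u) (hv : Ga L a v)
    (huv : f v u = 0) (hind : ∀ s : F, v ≠ s • u) (s : F) : Gg f L u (s • v) 0 := by
  have hf := N.C.hf
  have hb := hf.bilinear
  have hu0 := Ga_ne N hu
  have hv0 := Ga_ne N hv
  have huv' : f u v = 0 := by rw [sym hf, huv]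
  obtain ⟨α₀, hα₀, hαc, -⟩ := exists_coc N hu
  obtain ⟨β₀, hβ₀, hβc, -⟩ := exists_coc N hv
  have hvu1 : f ((1 : F) • v) u = 0 := by rw [one_smul]; exact huv
  rcases hq s with rfl | rfl
  · rw [zero_smul]
    exact ⟨1, L.one_mem, fun x => by simp [Gf, fz_r hf]⟩
  by_contra hcon
  have hα1 : α₀ ((1 : F) • v) = 1 := by
    rcases hq (α₀ ((1 : F) • v)) with h | h
    · exact absurd (by have := hα₀ _ hvu1; rwa [h] at this) hcon
    · exact h
  have hT := T2_of N huv (hα₀ _ hvu1) (hβ₀ ((1 : F) • u) (by rw [one_smul]; exact huv'))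
  rw [hα1] at hT
  have hβ1 : β₀ ((1 : F) • u) = 1 := by
    rcases hq (β₀ ((1 : F) • u)) with h | h
    · exfalso
      rw [h] at hT
      exact one_ne_zero (T2_zero_r N hu0 hT)
    · exact h
  rw [hβ1] at hT
  have hTw : Tw f L u v := by
    obtain ⟨g, hg, e⟩ := hT
    refine ⟨g, hg, fun x => ?_⟩
    rw [e]
    simp only [Tf, hb.add_left, hb.smul_left, huv]
    simp
    abel
  have hTw2 : Tw f L u (v + u) := by
    obtain ⟨y, h1, h2⟩ := exists_y2 hf hu0 hind 0 1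
    obtain ⟨k, g, hg, e⟩ := Ga_lift N hu h1
    have := Tw_conj N hg hTw
    rw [e, e, Gf_of_perp hf (hf.alternating u), Gf_of_perp hf huv, sym hf u y, h1, sym hf v y, h2] at this
    simpa using this
  -- an element moving `u` off `u^⊥`
  obtain ⟨b, ⟨ℓ, hℓ, rfl⟩, hbne⟩ := exists_off hf N.C.hirr {x | ∃ g ∈ L, x = g ⋆ u}
    (by
      rintro g hg x ⟨g', hg', rfl⟩
      exact ⟨g * g', L.mul_mem hg hg', by rw [mulVec_mul_GL]⟩)
    ⟨u, ⟨1, L.one_mem, by simp⟩, hu0⟩ hu0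
  have hbu : f (ℓ ⋆ u) u = 1 := (hq _).resolve_left hbne
  set b := ℓ ⋆ u with hbdef
  have hb0 := Ga_L hu hℓ
  rw [← hbdef] at hb0
  have hv'u : f (ℓ ⋆ v) b = 0 := by rw [hbdef, N.C.hL ℓ hℓ, huv]
  have t1 := Tw_conj N hℓ hTw
  have t2 := Tw_conj N hℓ hTw2
  rw [mulVec_add, ← hbdef] at t2
  rw [← hbdef] at t1
  -- the vector orthogonal to `u` and `b`
  obtain ⟨v₂, hv₂u, hv₂b, hv₂T, hv₂ne⟩ : ∃ v₂, f v₂ u = 0 ∧ f v₂ b = 0 ∧ Tw f L b v₂ ∧ v₂ ≠ 0 := by
    have hne1 : ℓ ⋆ v ≠ 0 := fun h => hv0 (GL_inj ℓ h)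
    have hne2 : ℓ ⋆ v + b ≠ 0 := by
      intro h
      have h3 : ℓ ⋆ v = ℓ ⋆ u := by
        ext i
        have h5 := congrFun h i
        simp only [Pi.add_apply, Pi.zero_apply] at h5
        exact CharTwo.add_eq_zero.1 h5
      have h4 := GL_inj' ℓ h3
      apply hind 1
      rw [one_smul]
      exact h4
    rcases hq (f (ℓ ⋆ v) u) with h | h
    · exact ⟨_, h, hv'u, t1, hne1⟩
    · refine ⟨_, ?_, ?_, t2, hne2⟩
      · rw [hb.add_left, h, hbu]
        exact CharTwo.add_self_eq_zero 1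
      · rw [hb.add_left, hv'u, hf.alternating, add_zero]
  -- `γ` vanishes on the orthogonal of `u, v₂`
  have hzero : ∀ y, f y u = 0 → f y v₂ = 0 → α₀ y = 0 := by
    intro y hy1 hy2
    obtain ⟨g, hg, e⟩ := hα₀ y hy1
    have h1 := Tw_conj N hg hv₂T
    have h2 : g ⋆ v₂ = v₂ := by
      rw [e, Gf_of_perp hf hv₂u, sym hf v₂ y, hy2, zero_smul, add_zero]
    rw [h2] at h1
    have h3 := Tw_trans hf hv₂T (Tw_symm hf h1)
    by_contra hne
    have h4 : α₀ y = 1 := (hq _).resolve_left hne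
    have h5 : f (g ⋆ b) b = 1 := by
      rw [e, Cx.f_Gf_self hf, hbu, h4]
      simp
    have h6 := Ga_L hb0 hg
    exact no_Tw N hb0 h6 (by rw [sym hf, h5]) hcard h3
  -- a hyperbolic plane in that orthogonal
  obtain ⟨t, ht⟩ := exists_partner hf hv₂ne 1
  have hub : f u b = 1 := by rw [sym hf, hbu]
  set w₂ := t + f t b • u + f t u • b with hw₂
  have hw₂u : f w₂ u = 0 := by
    simp only [hw₂, hb.add_left, hb.smul_left, hf.alternating, hbu]
    grind
  have hw₂b : f w₂ b = 0 := by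
    simp only [hw₂, hb.add_left, hb.smul_left, hf.alternating, hub]
    grind
  have hw₂v : f w₂ v₂ = 1 := by
    have e1 : f u v₂ = 0 := by rw [sym hf, hv₂u]
    have e2 : f b v₂ = 0 := by rw [sym hf, hv₂b]
    simp only [hw₂, hb.add_left, hb.smul_left, e1, e2, ht]
    simp
  have hv₂w : f v₂ w₂ = 1 := by rw [sym hf, hw₂v]
  obtain ⟨y₁, y₂, e1, e2, e3, e4, e5, e6, e7, e8, e9⟩ := hyp_pair2 hf hub hv₂w (by rw [sym hf, hv₂u])
    (by rw [sym hf, hw₂u]) (by rw [sym hf, hv₂b]) (by rw [sym hf, hw₂b]) hcard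
  have h1 := hzero y₁ e1 e3
  have h2 := hzero y₂ e5 e7
  have h3 := hzero (y₁ + y₂) (by rw [hb.add_left, e1, e5, add_zero]) (by rw [hb.add_left, e3, e7, add_zero])
  rw [hαc _ _ e1 e5, h1, h2, e9] at h3
  simp at h3

/-- `P1`. -/
theorem P1 (hq : (∃ t : F, t ≠ 0 ∧ t ≠ 1) ∨ 6 ≤ Fintype.card ι) {u v : ι → F} (hu : Ga L a u) (hv : Ga L a v)
    (huv : f v u = 0) (hind : ∀ s : F, v ≠ s • u) (s : F) : Gg f L u (s • v) 0 := by
  by_cases h : ∃ t : F, t ≠ 0 ∧ t ≠ 1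
  · exact P1a N h hu hv huv hind s
  · push Not at h
    have h2 : ∀ t : F, t = 0 ∨ t = 1 := fun t => by
      by_cases h3 : t = 0
      · exact Or.inl h3
      · exact Or.inr (h t h3)
    have h3 : 6 ≤ Fintype.card ι := by
      rcases hq with ⟨t, h4, h5⟩ | h6
      · exact absurd (h t h4) h5
      · exact h6
    exact P1b N h2 h3 hu hv huv hind s

end NT

end Cfsg.Agent.Lib.H97XC
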