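import Mathlib
import Cfsg.Agent.Lib.H97XC

/-!
# The case of no transvection: homogeneity of the cocycle, the quadratic form
-/

set_option autoImplicit false
set_option linter.unusedSectionVars false
set_option linter.unusedVariables false
set_option linter.unusedSimpArgs false

namespace Cfsg.Agent.Lib.H97XD

open Matrix Cfsg Cfsg.Geo Cfsg.Agent.Lib.H97XA Cfsg.Agent.Lib.H97XB Cfsg.Agent.Lib.H97XC Cfsg.Agent.Lib.H97XC.NT
open Cfsg.Agent.Lib.SympT (GL_ext mulVec_mul_GL mulVec_inv_GL inv_mulVec_GL)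

local notation:70 g:71 " ⋆ " x:70 => Matrix.mulVec (Units.val g) x

variable {ι : Type} [Fintype ι] [DecidableEq ι] {F : Type*} [Field F] [CharP F 2] [Fintype F]
  {f : (ι → F) → (ι → F) → F}

/-- The Hua-type lemma. -/
theorem hua2 (A : F → F) (hadd : ∀ s t, A (s + t) = A s + A t) (hinj : Function.Injective A)
    (hC : ∀ s t, s ≠ 0 → t ≠ 0 → s ≠ t → A ((A t * s + A s * t) / (A s + A t)) = A s * A t / (A s + A t)) (s : F) :
    A s = s ^ 2 * A 1 := by
  classical
  have h2 : (2 : F) = 0 := two0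
  have hA0 : A 0 = 0 := by
    have := hadd 0 0
    rw [add_zero] at this
    grind
  have hbij : Function.Bijective A := ⟨hinj, Finite.injective_iff_surjective.1 hinj⟩
  let Eq := Equiv.ofBijective A hbij
  let E : F → F := Eq.symm
  have hAE : ∀ u, A (E u) = u := fun u => Eq.apply_symm_apply u
  have hEA : ∀ u, E (A u) = u := fun u => Eq.symm_apply_apply u
  have hE0 : E 0 = 0 := by
    have := hEA 0
    rwa [hA0] at this
  have hEadd : ∀ u v, E (u + v) = E u + E v := by
    intro u v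
    apply hinj
    rw [hAE, hadd, hAE, hAE]
  have hEne : ∀ u, u ≠ 0 → E u ≠ 0 := by
    intro u hu h
    apply hu
    have := hAE u
    rw [h, hA0] at this
    exact this.symm
  let e : F → F := fun x => x * E x⁻¹
  have he0 : e 0 = 0 := by simp [e]
  have heinv : ∀ x, x ≠ 0 → e x⁻¹ = x⁻¹ * E x := fun x hx => by simp [e]
  have hepair : ∀ x y, x ≠ 0 → y ≠ 0 → x ≠ y → e (x⁻¹ + y⁻¹) = e x⁻¹ + e y⁻¹ := by
    intro x y hx hy hxy
    have hxy' : x + y ≠ 0 := fun h => hxy (CharTwo.add_eq_zero.1 h)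
    have h1 := hC (E x) (E y) (hEne x hx) (hEne y hy) (fun h => hxy (by
      have := congrArg A h
      rwa [hAE, hAE] at this))
    rw [hAE, hAE] at h1
    have h3 := congrArg E h1
    rw [hEA] at h3
    have h4 : x⁻¹ + y⁻¹ ≠ 0 := by
      intro h
      apply hxy
      have := CharTwo.add_eq_zero.1 h
      exact inv_injective this
    have h5 : (x⁻¹ + y⁻¹)⁻¹ = x * y / (x + y) := by
      rw [inv_add_inv hx hy, inv_div]
    rw [heinv x hx, heinv y hy]
    show (x⁻¹ + y⁻¹) * E (x⁻¹ + y⁻¹)⁻¹ = _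
    rw [h5, ← h3]
    field_simp
    ring
  have headd : ∀ X Y, e (X + Y) = e X + e Y := by
    intro X Y
    by_cases hX : X = 0
    · rw [hX, zero_add, he0, zero_add]
    by_cases hY : Y = 0
    · rw [hY, add_zero, he0, add_zero]
    by_cases hXY : X = Y
    · rw [hXY, CharTwo.add_self_eq_zero, CharTwo.add_self_eq_zero, he0]
    have := hepair X⁻¹ Y⁻¹ (inv_ne_zero hX) (inv_ne_zero hY) (fun h => hXY (inv_injective h))
    simpa using this
  have hsq : ∀ x, e (x ^ 2) = x * e 1 := by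
    intro x
    by_cases hx0 : x = 0
    · rw [hx0]
      simp [he0]
    by_cases hx1 : x = 1
    · rw [hx1]
      simp
    have hx1' : x + 1 ≠ 0 := fun h => hx1 (CharTwo.add_eq_zero.1 h)
    have hxx : x ^ 2 + x ≠ 0 := by
      have : x ^ 2 + x = x * (x + 1) := by ring
      rw [this]
      exact mul_ne_zero hx0 hx1'
    have h1 : x⁻¹ + (x + 1)⁻¹ = (x ^ 2 + x)⁻¹ := by
      field_simp
      have h5 : (2 : F) * x = 0 := by rw [h2, zero_mul]
      ring_nf
      grind
    have h3 := hEadd x⁻¹ (x + 1)⁻¹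
    rw [h1] at h3
    have e1 : E x⁻¹ = e x / x := by
      show _ = x * E x⁻¹ / x
      field_simp
    have e2 : E (x + 1)⁻¹ = e (x + 1) / (x + 1) := by
      show _ = (x + 1) * E (x + 1)⁻¹ / (x + 1)
      field_simp
    have e3 : E (x ^ 2 + x)⁻¹ = e (x ^ 2 + x) / (x ^ 2 + x) := by
      show _ = (x ^ 2 + x) * E (x ^ 2 + x)⁻¹ / (x ^ 2 + x)
      field_simp
    rw [e1, e2, e3, headd x 1, headd (x ^ 2) x] at h3
    have e4 : x ^ 2 + x = x * (x + 1) := by ring
    rw [e4] at h3
    field_simp at h3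
    have h6 : e (x * x) = e (x ^ 2) := by rw [sq]
    ring_nf at h3 ⊢
    grind
  have hmain : ∀ s, s ≠ 0 → A s * (e 1) ^ 2 = s ^ 2 := by
    intro s hs
    have hu : A s ≠ 0 := fun h => hs (hinj (by rw [h, hA0]))
    obtain ⟨x, hx⟩ := exists_sqrt (A s)⁻¹
    have hx0 : x ≠ 0 := by
      rintro rfl
      rw [mul_zero] at hx
      exact inv_ne_zero hu hx.symm
    have h1 : e (A s)⁻¹ = (A s)⁻¹ * s := by
      rw [heinv _ hu, hEA]
    have h3 : e (A s)⁻¹ = x * e 1 := by
      rw [← hx, ← sq, hsq]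
    have h4 : s = A s * (x * e 1) := by
      rw [← h3, h1]
      field_simp
    have h5 : A s = (x * x)⁻¹ := by rw [hx, inv_inv]
    have h6 : A s * (x * x) = 1 := by
      rw [h5]
      exact inv_mul_cancel₀ (mul_ne_zero hx0 hx0)
    have h7 : s ^ 2 = (A s * (x * e 1)) ^ 2 := congrArg (· ^ 2) h4
    rw [h7]
    calc A s * e 1 ^ 2 = A s * (A s * (x * x)) * e 1 ^ 2 := by rw [h6, mul_one]
      _ = _ := by ring
  by_cases hs : s = 0
  · rw [hs, hA0]
    simp
  · have h1 := hmain s hs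
    have h3 := hmain 1 one_ne_zero
    have h4 : e 1 ≠ 0 := by
      intro h
      rw [h] at h3
      simp at h3
    have h5 : (e 1) ^ 2 ≠ 0 := pow_ne_zero _ h4
    apply mul_right_cancel₀ h5
    rw [h1, mul_assoc, h3]
    ring

variable {L : Subgroup (GL ι F)} {a : ι → F} {c : (ι → F) → F}

/-- Surjectivity of a twisted cocycle on the orthogonal of a vector. -/
theorem coc_twist_surj (hf : IsSymplecticForm f) (hcard : 4 ≤ Fintype.card ι) {v : ι → F} (hv : v ≠ 0)
    {γ : (ι → F) → F} (hγ : ∀ y y', f y v = 0 → f y' v = 0 → γ (y + y') = γ y + γ y' + f y y') (Z : ι → F) (θ : F) :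
    ∃ w, f w v = 0 ∧ γ w + f w Z = θ := by
  obtain ⟨y₁, y₂, h1, h2, h3⟩ := exists_hyp_perp hf hcard hv
  have hb := hf.bilinear
  obtain ⟨s, t, h⟩ := coc_surj (γ := fun y => γ y + f y Z) hf (fun y y' hy hy' => by
    simp only [hγ y y' hy hy', hb.add_left]
    ring) h1 h2 h3 θ
  refine ⟨s • y₁ + t • y₂, ?_, h⟩
  rw [hb.add_left, hb.smul_left, hb.smul_left, h1, h2]
  simp

namespace NT

variable (N : NT f L a c)
include N

/-- A zero of the cocycle lies in `Γ`. -/
theorem Ga_of_zero {b : ι → F} (hb₀ : Ga L a b) (hba : f b a = 1) {z : ι → F} (hz : f z a = 0)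
    (hna : ∀ s : F, z ≠ s • a) (hcz : c z = 0) : Ga L a z := by
  have hf := N.C.hf
  have hb := hf.bilinear
  obtain ⟨g, hg, e⟩ := N.C.hc z hz
  have hab : f a b = 1 := by rw [sym hf, hba]
  have h1 := Ga_L hb₀ hg
  have e1 : g ⋆ b = b + (z + f b z • a) := by
    rw [e, hcz]
    simp only [Gf, hba, zero_mul, zero_smul, one_smul, add_zero]
    abel
  rw [e1] at h1
  set z₁ := z + f b z • a with hz₁
  have hz₁a : f z₁ a = 0 := by
    rw [hz₁, hb.add_left, hb.smul_left, hf.alternating, hz]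
    simp
  have hz₁b : f z₁ b = 0 := by
    rw [hz₁, hb.add_left, hb.smul_left, hab, mul_one, sym hf z b, CharTwo.add_self_eq_zero]
  have hz₁ne : ∀ s : F, z₁ ≠ s • a := by
    intro s hs
    apply hna (s + f b z)
    rw [add_smul, ← hs, hz₁]
    ext i
    simp only [Pi.add_apply, Pi.smul_apply, smul_eq_mul]
    grind
  have h2 := Ga_add N hb₀ h1 (by rw [hb.add_left, hf.alternating, hz₁b, add_zero]) (by
    intro s hs
    have e2 := congrArg (fun x => f x a) hs
    simp only [hb.add_left, hb.smul_left, hba, hz₁a, add_zero, mul_one] at e2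
    rw [← e2, one_smul] at hs
    apply hz₁ne 0
    rw [zero_smul]
    ext i
    have := congrFun hs i
    simp only [Pi.add_apply] at this
    simpa using this) 1
  have e3 : b + z₁ + (1 : F) • b = z₁ := by
    rw [one_smul]
    ext i
    simp only [Pi.add_apply]
    grind
  rw [e3] at h2
  have h3 := Ga_add N (Ga_self N) h2 hz₁a hz₁ne (f b z)
  have e4 : z₁ + f b z • a = z := by
    rw [hz₁]
    ext i
    simp only [Pi.add_apply, Pi.smul_apply, smul_eq_mul]
    grind
  rwa [e4] at h3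

/-- The cocycle vanishes on the lines of its zeros. -/
theorem c_line_zero (hq : (∃ t : F, t ≠ 0 ∧ t ≠ 1) ∨ 6 ≤ Fintype.card ι) {b : ι → F} (hb₀ : Ga L a b)
    (hba : f b a = 1) {z : ι → F} (hz : f z a = 0) (hcz : c z = 0) (s : F) : c (s • z) = 0 := by
  have hb := N.C.hf.bilinear
  by_cases hpar : ∃ t : F, z = t • a
  · obtain ⟨t, rfl⟩ := hpar
    rw [smul_smul]
    exact Cx.c_smul_a N.C _
  · push Not at hpar
    have h1 := Ga_of_zero N hb₀ hba hz hpar hcz
    have h2 := P1 N hq (Ga_self N) h1 hz hpar s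
    have h3 : f (s • z) a = 0 := by rw [hb.smul_left, hz, mul_zero]
    exact uniq N N.C.ha h3 (N.C.hc _ h3) h2

/-- Homogeneity from a zero with the right product. -/
theorem hom_of_partner (hq : (∃ t : F, t ≠ 0 ∧ t ≠ 1) ∨ 6 ≤ Fintype.card ι) {b : ι → F} (hb₀ : Ga L a b)
    (hba : f b a = 1) {y y₁ : ι → F} (hy : f y a = 0) (hy₁ : f y₁ a = 0) (h0 : c y₁ = 0) (h1 : f y₁ y = c y)
    (s : F) : c (s • y) = s ^ 2 * c y := by
  have hf := N.C.hf
  have hb := hf.bilinear
  have hy₂ : f (y₁ + y) a = 0 := by rw [hb.add_left, hy₁, hy, add_zero]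
  have h2 : c (y₁ + y) = 0 := by
    rw [N.C.hcoc _ _ hy₁ hy, h0, h1, zero_add, CharTwo.add_self_eq_zero]
  have e1 : s • y = s • y₁ + s • (y₁ + y) := by
    ext i
    simp only [Pi.add_apply, Pi.smul_apply, smul_eq_mul]
    grind
  rw [e1, N.C.hcoc _ _ (by rw [hb.smul_left, hy₁, mul_zero]) (by rw [hb.smul_left, hy₂, mul_zero]),
    c_line_zero N hq hb₀ hba hy₁ h0, c_line_zero N hq hb₀ hba hy₂ h2, hb.smul_left, hb.smul_right, hb.add_right,
    hf.alternating, h1]
  ring

/-- A zero exists in rank at least three. -/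
theorem exists_zero (hcard : 6 ≤ Fintype.card ι) : ∃ z, f z a = 0 ∧ (∀ s : F, z ≠ s • a) ∧ c z = 0 := by
  have hf := N.C.hf
  have hb := hf.bilinear
  obtain ⟨b, hba⟩ := exists_partner hf N.C.ha 1
  have hab : f a b = 1 := by rw [sym hf, hba]
  obtain ⟨y₁, y₂, h1, h2, h3, h4, h5⟩ := hyp_pair1 hf hba (by omega)
  obtain ⟨y₃, y₄, e1, e2, e3, e4, e5, e6, e7, e8, e9⟩ := hyp_pair2 hf hba h5 (by rw [sym hf, h1])
    (by rw [sym hf, h3]) (by rw [sym hf, h2]) (by rw [sym hf, h4]) hcard
  obtain ⟨s, t, hst⟩ := coc_surj hf N.C.hcoc h2 h4 h5 (c y₃)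
  set x := s • y₁ + t • y₂ with hx
  have hxa : f x a = 0 := by rw [hx, hb.add_left, hb.smul_left, hb.smul_left, h2, h4]; simp
  refine ⟨x + y₃, by rw [hb.add_left, hxa, e2, add_zero], ?_, ?_⟩
  · intro r hr
    have h6 := congrArg (fun w => f w y₄) hr
    simp only [hb.add_left, hb.smul_left, e9] at h6
    rw [hx, hb.add_left, hb.smul_left, hb.smul_left, sym hf y₁ y₄, sym hf y₂ y₄, e7, e8, sym hf a y₄, e6] at h6
    simp at h6
  · rw [N.C.hcoc _ _ hxa e2, hst, CharTwo.add_self_eq_zero, zero_add, hx, hb.add_left, hb.smul_left, hb.smul_left,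
      sym hf y₁ y₃, sym hf y₂ y₃, e3, e4]
    simp

/-- Homogeneity in rank at least three. -/
theorem hom_big (hq : (∃ t : F, t ≠ 0 ∧ t ≠ 1) ∨ 6 ≤ Fintype.card ι) (hcard : 6 ≤ Fintype.card ι) {b : ι → F}
    (hb₀ : Ga L a b) (hba : f b a = 1) {y : ι → F} (hy : f y a = 0) (s : F) : c (s • y) = s ^ 2 * c y := by
  have hf := N.C.hf
  have hb := hf.bilinear
  have hab : f a b = 1 := by rw [sym hf, hba]
  by_cases hθ : c y = 0
  · rw [hθ, mul_zero]
    exact c_line_zero N hq hb₀ hba hy hθ s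
  have hay : f a y = 0 := by rw [sym hf, hy]
  set p := c y with hp
  set y' := y + f y b • a with hy'
  have hy'a : f y' a = 0 := by
    rw [hy', hb.add_left, hb.smul_left, hf.alternating, hy]
    simp
  have hy'b : f y' b = 0 := by
    rw [hy', hb.add_left, hb.smul_left, hab, mul_one, CharTwo.add_self_eq_zero]
  have hy'0 : y' ≠ 0 := by
    intro h
    apply hθ
    have e1 : y = f y b • a := by
      ext i
      have := congrFun h i
      simp only [hy', Pi.add_apply, Pi.smul_apply, smul_eq_mul, Pi.zero_apply] at this ⊢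
      exact CharTwo.add_eq_zero.1 this
    rw [hp, e1]
    exact Cx.c_smul_a N.C _
  obtain ⟨x₀, hx₀⟩ := exists_partner hf hy'0 p
  set x := x₀ + f x₀ b • a + f x₀ a • b with hx
  have hxa : f x a = 0 := by
    simp only [hx, hb.add_left, hb.smul_left, hf.alternating, hba]
    grind
  have hxb : f x b = 0 := by
    simp only [hx, hb.add_left, hb.smul_left, hf.alternating, hab]
    grind
  have hxy' : f x y' = p := by
    have e1 : f a y' = 0 := by rw [sym hf, hy'a]
    have e2 : f b y' = 0 := by rw [sym hf, hy'b]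
    simp only [hx, hb.add_left, hb.smul_left, e1, e2, hx₀]
    simp
  set x' := p⁻¹ • x with hx'
  have hx'y' : f x' y' = 1 := by
    rw [hx', hb.smul_left, hxy', inv_mul_cancel₀ hθ]
  obtain ⟨y₁, y₂, e1, e2, e3, e4, e5, e6, e7, e8, e9⟩ := hyp_pair2 hf hba hx'y'
    (by rw [sym hf, hb.smul_left, hxb, mul_zero]) (by rw [sym hf, hy'b])
    (by rw [sym hf, hb.smul_left, hxa, mul_zero]) (by rw [sym hf, hy'a]) hcard
  obtain ⟨s₁, t₁, hst⟩ := coc_surj (γ := fun w => c w + f w x) hf (fun w w' hw hw' => by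
    simp only [N.C.hcoc w w' hw hw', hb.add_left]
    ring) e2 e6 e9 (c x)
  set w := s₁ • y₁ + t₁ • y₂ with hw
  have hwa : f w a = 0 := by rw [hw, hb.add_left, hb.smul_left, hb.smul_left, e2, e6]; simp
  have hwy' : f w y' = 0 := by rw [hw, hb.add_left, hb.smul_left, hb.smul_left, e4, e8]; simp
  have hwy : f w y = 0 := by
    have : y = y' + f y b • a := by
      rw [hy']
      ext i
      simp only [Pi.add_apply, Pi.smul_apply, smul_eq_mul]
      grind
    rw [this, hb.add_right, hb.smul_right, hwy', hwa]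
    simp
  have hxy : f x y = p := by
    have : y = y' + f y b • a := by
      rw [hy']
      ext i
      simp only [Pi.add_apply, Pi.smul_apply, smul_eq_mul]
      grind
    rw [this, hb.add_right, hb.smul_right, hxy', hxa]
    simp
  have hst' : c w + f w x = c x := hst
  refine hom_of_partner N hq hb₀ hba hy (y₁ := x + w) (by rw [hb.add_left, hxa, hwa, add_zero]) ?_ ?_ s
  · rw [N.C.hcoc _ _ hxa hwa, sym hf x w]
    grind
  · rw [hb.add_left, hxy, hwy, add_zero]

/-- In dimension four, the orthogonal of an isotropic plane is the plane. -/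
theorem span_two (hcard : Fintype.card ι = 4) {z : ι → F} (hz : f z a = 0) (hna : ∀ s : F, z ≠ s • a) {y : ι → F}
    (hy1 : f y a = 0) (hy2 : f y z = 0) : ∃ s t : F, y = s • z + t • a := by
  classical
  have hf := N.C.hf
  set W := Submodule.span F ({z, a} : Set (ι → F)) with hW
  have hLI : LinearIndependent F ![z, a] := by
    rw [LinearIndependent.pair_iff]
    intro s t h
    have hs : s = 0 := by
      by_contra hs
      apply hna (-(s⁻¹ * t))
      have : z = s⁻¹ • (s • z) := by rw [smul_smul, inv_mul_cancel₀ hs, one_smul]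
      rw [this, eq_neg_of_add_eq_zero_left h]
      rw [smul_neg, neg_smul, smul_smul]
    subst hs
    refine ⟨rfl, ?_⟩
    rw [zero_smul, zero_add] at h
    rcases smul_eq_zero.1 h with h1 | h1
    · exact h1
    · exact absurd h1 N.C.ha
  have hWr : Module.finrank F W = 2 := by
    have h1 := finrank_span_eq_card hLI
    have h2 : Set.range ![z, a] = {z, a} := by
      ext x
      simp [Fin.exists_fin_two, eq_comm, or_comm]
    rw [h2, Fintype.card_fin] at h1
    exact h1
  have hp := Cfsg.Agent.Lib.SympT.finrank_perp hf W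
  rw [hcard, hWr] at hp
  have hle : W ≤ Cfsg.Agent.Lib.SympT.perp hf W := by
    rw [hW, Submodule.span_le]
    rintro x (rfl | rfl)
    · rw [SetLike.mem_coe, Cfsg.Agent.Lib.SympT.mem_perp]
      intro w hw
      rw [← hW] at hw
      induction hw using Submodule.span_induction with
      | mem u hu =>
        rcases hu with rfl | rfl
        · exact hf.alternating _
        · rw [sym hf, hz]
      | zero => exact fz_l hf _
      | add u v _ _ hu hv => rw [hf.bilinear.add_left, hu, hv, add_zero]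
      | smul s u _ hu => rw [hf.bilinear.smul_left, hu, mul_zero]
    · rw [SetLike.mem_coe, Cfsg.Agent.Lib.SympT.mem_perp]
      intro w hw
      rw [← hW] at hw
      induction hw using Submodule.span_induction with
      | mem u hu =>
        rcases hu with rfl | rfl
        · exact hz
        · exact hf.alternating _
      | zero => exact fz_l hf _
      | add u v _ _ hu hv => rw [hf.bilinear.add_left, hu, hv, add_zero]
      | smul s u _ hu => rw [hf.bilinear.smul_left, hu, mul_zero]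
  have heq := Submodule.eq_of_le_of_finrank_eq hle (by rw [hWr, hp])
  have hyW : y ∈ W := by
    rw [heq, Cfsg.Agent.Lib.SympT.mem_perp]
    intro w hw
    rw [hW] at hw
    induction hw using Submodule.span_induction with
    | mem u hu =>
      rcases hu with rfl | rfl
      · rw [sym hf, hy2]
      · rw [sym hf, hy1]
    | zero => exact fz_l hf _
    | add u v _ _ hu hv => rw [hf.bilinear.add_left, hu, hv, add_zero]
    | smul s u _ hu => rw [hf.bilinear.smul_left, hu, mul_zero]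
  obtain ⟨s, t, h⟩ := Submodule.mem_span_pair.1 hyW
  exact ⟨s, t, h.symm⟩

/-- Homogeneity in dimension four when there is a zero. -/
theorem hom_small (hq : (∃ t : F, t ≠ 0 ∧ t ≠ 1) ∨ 6 ≤ Fintype.card ι) (hcard : Fintype.card ι = 4) {b : ι → F}
    (hb₀ : Ga L a b) (hba : f b a = 1) {z : ι → F} (hz : f z a = 0) (hna : ∀ s : F, z ≠ s • a) (hcz : c z = 0)
    {y : ι → F} (hy : f y a = 0) (s : F) : c (s • y) = s ^ 2 * c y := by
  have hf := N.C.hf
  have hb := hf.bilinear
  by_cases hθ : c y = 0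
  · rw [hθ, mul_zero]
    exact c_line_zero N hq hb₀ hba hy hθ s
  by_cases hzy : f z y = 0
  · exfalso
    obtain ⟨s', t', e⟩ := span_two N hcard hz hna hy (by rw [sym hf, hzy])
    apply hθ
    rw [e, N.C.hca _ _ (by rw [hb.smul_left, hz, mul_zero])]
    exact c_line_zero N hq hb₀ hba hz hcz s'
  · refine hom_of_partner N hq hb₀ hba hy (y₁ := (c y / f z y) • z) (by rw [hb.smul_left, hz, mul_zero])
      (c_line_zero N hq hb₀ hba hz hcz _) ?_ s
    rw [hb.smul_left, div_mul_cancel₀ _ hzy]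

/-- No orthogonal pair in `Γ` when the cocycle has no zero. -/
theorem no_orth (hq : (∃ t : F, t ≠ 0 ∧ t ≠ 1) ∨ 6 ≤ Fintype.card ι)
    (hZ : ∀ z, f z a = 0 → (∀ s : F, z ≠ s • a) → c z ≠ 0) {u v : ι → F} (hu : Ga L a u) (hv : Ga L a v)
    (huv : f v u = 0) (hind : ∀ s : F, v ≠ s • u) : False := by
  have hf := N.C.hf
  have hb := hf.bilinear
  obtain ⟨κ, hκ, ℓ, hℓ, rfl⟩ := id hu
  set v' := ((ℓ⁻¹ : GL ι F)) ⋆ (κ⁻¹ • v) with hv'
  have h1 : Ga L a v' := Ga_L (Ga_smul hv (inv_ne_zero hκ)) (L.inv_mem hℓ)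
  have h2 : f v' a = 0 := by
    rw [hv', f_inv_left (N.C.hL ℓ hℓ), hb.smul_left]
    rw [hb.smul_right] at huv
    rcases mul_eq_zero.1 huv with h | h
    · exact absurd h hκ
    · rw [h, mul_zero]
  have h3 : ∀ s : F, v' ≠ s • a := by
    intro s hs
    apply hind s
    have e1 : κ⁻¹ • v = s • (ℓ ⋆ a) := by
      have := congrArg (fun x => ℓ ⋆ x) hs
      simpa only [hv', mulVec_inv_GL, mulVec_smul] using this
    have e2 : v = κ • (κ⁻¹ • v) := by rw [smul_smul, mul_inv_cancel₀ hκ, one_smul]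
    rw [e2, e1, smul_comm]
  have h4 := P1 N hq (Ga_self N) h1 h2 h3 1
  rw [one_smul] at h4
  exact hZ v' h2 h3 (uniq N N.C.ha h2 (N.C.hc _ h2) h4)

/-- `P2` when the cocycle has no zero. -/
theorem P2_anis (hq : (∃ t : F, t ≠ 0 ∧ t ≠ 1) ∨ 6 ≤ Fintype.card ι)
    (hZ : ∀ z, f z a = 0 → (∀ s : F, z ≠ s • a) → c z ≠ 0) {b : ι → F} (hb₀ : Ga L a b) (hba : f b a = 1)
    {x : ι → F} (hx : Ga L a x) (hxa : f x a = 1) : f b (x + b) + c (x + b) = 0 := by
  have hf := N.C.hf
  have hb := hf.bilinear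
  have hab : f a b = 1 := by rw [sym hf, hba]
  set y := x + b with hy
  have hya : f y a = 0 := by
    rw [hy, hb.add_left, hxa, hba]
    exact CharTwo.add_self_eq_zero 1
  obtain ⟨w, hwa, hw⟩ := Cx.twist_surj N.C y (f y b)
  obtain ⟨g, hg, e⟩ := N.C.hc w hwa
  have h1 := Ga_L hb₀ hg
  have e1 : g ⋆ b = b + w + (f b w + c w) • a := by
    rw [e]
    simp only [Gf, hba, one_smul, mul_one]
    ext i
    simp only [Pi.add_apply, Pi.smul_apply, smul_eq_mul]
    grind
  rw [e1] at h1
  set bw := b + w + (f b w + c w) • a with hbw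
  have hbwa : f bw a = 1 := by
    rw [hbw, hb.add_left, hb.add_left, hb.smul_left, hba, hwa, hf.alternating]
    simp
  have hxy : x = y + b := by
    rw [hy]
    ext i
    simp only [Pi.add_apply]
    grind
  have horth : f x bw = 0 := by
    have e3 : f a w = 0 := by rw [sym hf, hwa]
    have e4 : f b w = f w b := sym hf _ _
    have e5 : f y w = f w y := sym hf _ _
    rw [hxy]
    simp only [hbw, hb.add_left, hb.add_right, hb.smul_right, hya, hba, hab, hf.alternating, e3, e4, e5]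
    grind
  by_cases hind : ∀ s : F, x ≠ s • bw
  · exact (no_orth N hq hZ h1 hx horth hind).elim
  · push Not at hind
    obtain ⟨s, hs⟩ := hind
    have h2 : s = 1 := by
      have := congrArg (fun t => f t a) hs
      simp only [hb.smul_left, hbwa, hxa, mul_one] at this
      exact this.symm
    rw [h2, one_smul] at hs
    have e6 : y = w + (f b w + c w) • a := by
      rw [hy, hs, hbw]
      ext i
      simp only [Pi.add_apply, Pi.smul_apply, smul_eq_mul]
      grind
    rw [e6, N.C.hca _ _ hwa, hb.add_right, hb.smul_right, sym hf b a, hab]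
    grind

/-- The relation between the cocycles of `a` and `b`. -/
theorem star (hq : (∃ t : F, t ≠ 0 ∧ t ≠ 1) ∨ 6 ≤ Fintype.card ι)
    (hZ : ∀ z, f z a = 0 → (∀ s : F, z ≠ s • a) → c z ≠ 0) {b : ι → F} (hb₀ : Ga L a b) (hba : f b a = 1)
    {y : ι → F} (hya : f y a = 0) (hyb : f y b = 0) (hr : c y ≠ 0) : Gg f L b ((c y)⁻¹ • y) (c y)⁻¹ := by
  have hf := N.C.hf
  have hb := hf.bilinear
  have hab : f a b = 1 := by rw [sym hf, hba]
  have hb0 := Ga_ne N hb₀
  set r := c y with hrdef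
  obtain ⟨β, hβ, hβc, hβa⟩ := exists_coc N hb₀
  obtain ⟨z, hzb, hz⟩ := coc_twist_surj hf N.C.card4 hb0 hβc (r⁻¹ • y) r⁻¹
  -- the two vectors
  obtain ⟨g₁, hg₁, e₁⟩ := N.C.hc y hya
  have h1 := Ga_L hb₀ hg₁
  have hby : f b y = 0 := by rw [sym hf, hyb]
  have hay : f a y = 0 := by rw [sym hf, hya]
  have e1 : g₁ ⋆ b = b + y + r • a := by
    rw [e₁]
    simp only [Gf, hba, hby, one_smul, mul_one, zero_smul, add_zero]
    rfl
  rw [e1] at h1
  obtain ⟨g₂, hg₂, e₂⟩ := hβ z hzb
  have h2 := Ga_L (Ga_self N) hg₂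
  set e₀ := f a z + β z with he₀
  have e2 : g₂ ⋆ a = a + z + e₀ • b := by
    rw [e₂]
    simp only [Gf, hab, one_smul, mul_one, he₀]
    ext i
    simp only [Pi.add_apply, Pi.smul_apply, smul_eq_mul]
    grind
  rw [e2] at h2
  have hbz : f b z = 0 := by rw [sym hf, hzb]
  have hzr : β z + r⁻¹ * f z y = r⁻¹ := by
    rw [hb.smul_right] at hz
    exact hz
  have horth : f (a + z + e₀ • b) (b + y + r • a) = 0 := by
    have e3 : f a z = f z a := sym hf _ _
    simp only [hb.add_left, hb.add_right, hb.smul_left, hb.smul_right, hf.alternating, hab, hba, hay, hby, hzb, e3, he₀]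
    have hr' : r ≠ 0 := hr
    have : r * (β z + r⁻¹ * f z y) = r * r⁻¹ := by rw [hzr]
    rw [mul_add, ← mul_assoc, mul_inv_cancel₀ hr', one_mul] at this
    grind
  by_cases hind : ∀ s : F, a + z + e₀ • b ≠ s • (b + y + r • a)
  · exact (no_orth N hq hZ h1 h2 horth hind).elim
  · push Not at hind
    obtain ⟨s, hs⟩ := hind
    have hr' : r ≠ 0 := hr
    have hsr : s = r⁻¹ := by
      have := congrArg (fun t => f t b) hs
      simp only [hb.add_left, hb.smul_left, hab, hzb, hf.alternating, hyb] at this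
      field_simp
      grind
    rw [hsr] at hs
    have e6 : z = r⁻¹ • y + (r⁻¹ + e₀) • b := by
      ext i
      have h3 := congrFun hs i
      simp only [Pi.add_apply, Pi.smul_apply, smul_eq_mul] at h3 ⊢
      have h4 : r⁻¹ * (r * a i) = a i := by
        rw [← mul_assoc, inv_mul_cancel₀ hr', one_mul]
      grind
    have h5 : f (r⁻¹ • y) b = 0 := by rw [hb.smul_left, hyb, mul_zero]
    have h6 : β z = β (r⁻¹ • y) := by
      rw [e6]
      exact hβa _ _ h5
    have h7 : f a z = r⁻¹ + e₀ := by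
      rw [e6, hb.add_right, hb.smul_right, hb.smul_right, hay, hab]
      simp
    have h8 : β (r⁻¹ • y) = r⁻¹ := by
      rw [he₀, h7, h6] at *
      grind
    have := hβ _ h5
    rwa [h8] at this

/-- Homogeneity when there is no zero. -/
theorem hom_anis (hq : (∃ t : F, t ≠ 0 ∧ t ≠ 1) ∨ 6 ≤ Fintype.card ι)
    (hZ : ∀ z, f z a = 0 → (∀ s : F, z ≠ s • a) → c z ≠ 0) {b : ι → F} (hb₀ : Ga L a b) (hba : f b a = 1)
    {y : ι → F} (hy : f y a = 0) (s : F) : c (s • y) = s ^ 2 * c y := by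
  have hf := N.C.hf
  have hb := hf.bilinear
  have hab : f a b = 1 := by rw [sym hf, hba]
  set z := y + f y b • a with hzdef
  have hza : f z a = 0 := by
    rw [hzdef, hb.add_left, hb.smul_left, hf.alternating, hy]
    simp
  have hzb : f z b = 0 := by
    rw [hzdef, hb.add_left, hb.smul_left, hab, mul_one, CharTwo.add_self_eq_zero]
  have hcyz : c y = c z := (N.C.hca _ _ hy).symm
  have hcsyz : c (s • y) = c (s • z) := by
    rw [hzdef, smul_add, smul_smul, N.C.hca _ _ (by rw [hb.smul_left, hy, mul_zero])]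
  rw [hcsyz, hcyz]
  by_cases hz0 : z = 0
  · rw [hz0, smul_zero, Cx.c_zero N.C, mul_zero]
  have hbz : f b z = 0 := by rw [sym hf, hzb]
  have haz : f a z = 0 := by rw [sym hf, hza]
  have hsa : ∀ t : F, t ≠ 0 → ∀ r : F, t • z ≠ r • a := by
    intro t ht r h
    have h1 := congrArg (fun w => f w b) h
    simp only [hb.smul_left, hzb, hab, mul_zero, mul_one] at h1
    rw [← h1, zero_smul] at h
    rcases smul_eq_zero.1 h with h2 | h2
    · exact ht h2
    · exact hz0 h2
  have hsz : ∀ t : F, f (t • z) a = 0 := fun t => by rw [hb.smul_left, hza, mul_zero]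
  have hszb : ∀ t : F, f (t • z) b = 0 := fun t => by rw [hb.smul_left, hzb, mul_zero]
  have hne : ∀ t : F, t ≠ 0 → c (t • z) ≠ 0 := fun t ht => hZ _ (hsz t) (hsa t ht)
  set A : F → F := fun t => c (t • z) with hA
  have hadd : ∀ s t, A (s + t) = A s + A t := by
    intro s t
    simp only [hA, add_smul]
    rw [N.C.hcoc _ _ (hsz s) (hsz t), hb.smul_left, hb.smul_right, hf.alternating]
    simp
  have hinj : Function.Injective A := by
    intro s t h
    by_contra hst
    have h1 : s + t ≠ 0 := fun h2 => hst (CharTwo.add_eq_zero.1 h2)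
    apply hne _ h1
    show A (s + t) = 0
    rw [hadd, h, CharTwo.add_self_eq_zero]
  have hC : ∀ s t, s ≠ 0 → t ≠ 0 → s ≠ t → A ((A t * s + A s * t) / (A s + A t)) = A s * A t / (A s + A t) := by
    intro s t hs ht hst
    have hr : A t ≠ 0 := hne t ht
    have hρ : A s ≠ 0 := hne s hs
    have hρr : A s + A t ≠ 0 := by
      intro h
      exact hst (hinj (CharTwo.add_eq_zero.1 h))
    set r := A t with hrdef
    set ρ := A s with hρdef
    have hS := star N hq hZ hb₀ hba (hsz t) (hszb t) hr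
    obtain ⟨g₂, hg₂, e₂⟩ := hS
    obtain ⟨g₁, hg₁, e₁⟩ := N.C.hc (s • z) (hsz s)
    have h1 := Ga_L (Ga_L hb₀ hg₁) hg₂
    have e1 : g₁ ⋆ b = b + s • z + ρ • a := by
      rw [e₁]
      simp only [Gf, hba, hb.smul_right, hbz, one_smul, mul_one, mul_zero, zero_smul, add_zero]
      rfl
    have e₂' : ∀ x, g₂ ⋆ x = Gf f b (r⁻¹ • t • z) r⁻¹ x := e₂
    have e2 : g₂ ⋆ (b + s • z + ρ • a) = (1 + r⁻¹ * ρ) • b + (s + ρ * (r⁻¹ * t)) • z + ρ • a := by
      rw [e₂']
      have e3 : f (b + s • z + ρ • a) b = ρ := by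
        simp only [hb.add_left, hb.smul_left, hf.alternating, hzb, hab]
        simp
      have e4 : f (b + s • z + ρ • a) (r⁻¹ • t • z) = 0 := by
        simp only [hb.add_left, hb.smul_left, hb.smul_right, hbz, hf.alternating, haz]
        simp
      simp only [Gf, e3, e4]
      ext i
      simp only [Pi.add_apply, Pi.smul_apply, smul_eq_mul]
      ring
    rw [e1, e2] at h1
    set μ := 1 + r⁻¹ * ρ with hμ
    have hμ0 : μ ≠ 0 := by
      rw [hμ]
      intro h
      apply hρr
      have h3 : r⁻¹ * ρ = 1 := (CharTwo.add_eq_zero.1 h).symm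
      have h4 : ρ = r := by
        field_simp at h3
        exact h3
      rw [h4]
      exact CharTwo.add_self_eq_zero r
    have h2 := Ga_smul h1 (inv_ne_zero hμ0)
    set vec := μ • b + (s + ρ * (r⁻¹ * t)) • z + ρ • a with hvec
    have hva : f (μ⁻¹ • vec) a = 1 := by
      rw [hb.smul_left, hvec]
      simp only [hb.add_left, hb.smul_left, hf.alternating, hza, hba]
      simp only [mul_one, mul_zero, add_zero]
      exact inv_mul_cancel₀ hμ0
    have h3 := P2_anis N hq hZ hb₀ hba h2 hva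
    have e5 : μ⁻¹ • vec + b = ((s + ρ * (r⁻¹ * t)) / μ) • z + (ρ / μ) • a := by
      rw [hvec]
      ext i
      simp only [Pi.add_apply, Pi.smul_apply, smul_eq_mul]
      have h4 : μ⁻¹ * (μ * b i) = b i := by
        rw [← mul_assoc, inv_mul_cancel₀ hμ0, one_mul]
      rw [div_eq_mul_inv, div_eq_mul_inv]
      grind
    rw [e5, N.C.hca _ _ (hsz _), hb.add_right, hb.smul_right, hb.smul_right, hbz, sym hf b a, hab] at h3
    have h4 : A ((s + ρ * (r⁻¹ * t)) / μ) = ρ / μ := by
      show c (((s + ρ * (r⁻¹ * t)) / μ) • z) = _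
      simp only [mul_zero, zero_add, mul_one] at h3
      exact (CharTwo.add_eq_zero.1 h3).symm
    have h5 : (s + ρ * (r⁻¹ * t)) / μ = (r * s + ρ * t) / (ρ + r) := by
      rw [hμ]
      have : 1 + r⁻¹ * ρ = (ρ + r) / r := by field_simp; ring
      rw [this]
      have h6 : ρ + r ≠ 0 := by rw [add_comm]; rwa [add_comm] at hρr
      field_simp
    have h6 : ρ / μ = ρ * r / (ρ + r) := by
      rw [hμ]
      have : 1 + r⁻¹ * ρ = (ρ + r) / r := by field_simp; ring
      rw [this]
      have h6 : ρ + r ≠ 0 := by rw [add_comm]; rwa [add_comm] at hρr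
      field_simp
    rw [h5, h6] at h4
    exact h4
  have := hua2 A hadd hinj hC s
  simp only [hA, one_smul] at this
  exact this

/-- `P2` when the cocycle has a zero. -/
theorem P2_zero (hq : (∃ t : F, t ≠ 0 ∧ t ≠ 1) ∨ 6 ≤ Fintype.card ι) {z : ι → F} (hz : f z a = 0)
    (hna : ∀ s : F, z ≠ s • a) (hcz : c z = 0) {b : ι → F} (hb₀ : Ga L a b) (hba : f b a = 1)
    {x : ι → F} (hx : Ga L a x) (hxa : f x a = 1) : f b (x + b) + c (x + b) = 0 := by
  have hf := N.C.hf
  have hb := hf.bilinear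
  have hab : f a b = 1 := by rw [sym hf, hba]
  set y := x + b with hy
  have hya : f y a = 0 := by
    rw [hy, hb.add_left, hxa, hba]
    exact CharTwo.add_self_eq_zero 1
  by_contra ht
  set t := f b y + c y with htdef
  obtain ⟨g, hg, e⟩ := N.C.hc y hya
  have h1 := Ga_L hx hg
  have e1 : g ⋆ x = b + t • a := by
    rw [e]
    have e2 : f x y = f b y := by
      rw [hy, hb.add_right, hf.alternating, zero_add, hb.add_right, hf.alternating, add_zero,
        sym hf x b]
    simp only [Gf, hxa, e2, one_smul, mul_one, htdef]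
    rw [hy]
    ext i
    simp only [Pi.add_apply, Pi.smul_apply, smul_eq_mul]
    grind
  rw [e1] at h1
  obtain ⟨l, hl⟩ := exists_sqrt t⁻¹
  have hl0 : l ≠ 0 := by
    rintro rfl
    rw [mul_zero] at hl
    exact inv_ne_zero ht hl.symm
  have hl1 : l * l * t = 1 := by rw [hl, inv_mul_cancel₀ ht]
  set e₁ := (l * t) • a with he₁
  set e₂ := l • b with he₂
  have h12 : f e₁ e₂ = 1 := by
    rw [he₁, he₂, hb.smul_left, hb.smul_right, hab]
    linear_combination hl1
  have g₁ : Ga L a e₁ := Ga_smul (Ga_self N) (mul_ne_zero hl0 ht)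
  have g₂ : Ga L a e₂ := Ga_smul hb₀ hl0
  have g₃ : Ga L a (e₁ + e₂) := by
    have := Ga_smul h1 hl0
    rwa [show l • (b + t • a) = e₁ + e₂ by
      rw [he₁, he₂, smul_add, smul_smul, add_comm]] at this
  set z₁ := z + f z b • a with hz₁
  have hz₁a : f z₁ a = 0 := by
    rw [hz₁, hb.add_left, hb.smul_left, hf.alternating, hz]
    simp
  have hz₁b : f z₁ b = 0 := by
    rw [hz₁, hb.add_left, hb.smul_left, hab, mul_one, CharTwo.add_self_eq_zero]
  have hcz₁ : c z₁ = 0 := by rw [hz₁, N.C.hca _ _ hz, hcz]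
  have hna₁ : ∀ s : F, z₁ ≠ s • a := by
    intro s hs
    apply hna (s + f z b)
    rw [add_smul, ← hs, hz₁]
    ext i
    simp only [Pi.add_apply, Pi.smul_apply, smul_eq_mul]
    grind
  have gz : Ga L a z₁ := Ga_of_zero N hb₀ hba hz₁a hna₁ hcz₁
  have hz0 := Ga_ne N gz
  have hz1 : f z₁ e₁ = 0 := by rw [he₁, hb.smul_right, hz₁a, mul_zero]
  have hz2 : f z₁ e₂ = 0 := by rw [he₂, hb.smul_right, hz₁b, mul_zero]
  have hz3 : f z₁ (e₁ + e₂) = 0 := by rw [hb.add_right, hz1, hz2, add_zero]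
  have hsmul : ∀ {e : ι → F} {κ : F}, f e a = κ → κ ≠ 0 → ∀ s : F, z₁ ≠ s • e := by
    intro e κ he hκ s h
    have h3 := congrArg (fun w => f w a) h
    simp only [hb.smul_left, hz₁a, he] at h3
    have hs : s = 0 := by
      rcases mul_eq_zero.1 h3.symm with h4 | h4
      · exact h4
      · exact absurd h4 hκ
    rw [hs, zero_smul] at h
    exact hz0 h
  have a1 := P1 N hq g₁ gz hz1 (fun s h => by
    apply hna₁ (s * (l * t))
    rw [h, he₁, smul_smul]) 1
  have a2 := P1 N hq g₂ gz hz2 (hsmul (κ := l) (by rw [he₂, hb.smul_left, hba, mul_one]) hl0) 1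
  have a3 := P1 N hq g₃ gz hz3 (hsmul (κ := l) (by
    rw [hb.add_left, he₁, he₂, hb.smul_left, hb.smul_left, hf.alternating, hba]
    simp) hl0) 1
  rw [one_smul] at a1 a2 a3
  exact N.hnt z₁ 1 hz0 one_ne_zero (M_eq N h12 hz1 hz2 a1 a2 a3)

/-- The form is preserved by the elements of `X`. -/
theorem Qe_Gf {b : ι → F} (hba : f b a = 1) (hh : ∀ y, f y a = 0 → ∀ s : F, c (s • y) = s ^ 2 * c y) (e₀ : F)
    {y : ι → F} (hy : f y a = 0) (x : ι → F) : Cx.Qe f a b c e₀ (Gf f a y (c y) x) = Cx.Qe f a b c e₀ x := by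
  have hf := N.C.hf
  have hb := hf.bilinear
  have hQ := Cx.isQ_Qe N.C hba hh e₀
  have hQy : ∀ y, f y a = 0 → Cx.Qe f a b c e₀ y = c y := by
    intro y hy
    simp only [Cx.Qe, hy, zero_smul, add_zero, zero_mul]
    simp
  have e1 : Gf f a y (c y) x = x + ((f x a) • y + (f x y + c y * f x a) • a) := by
    simp only [Gf]
    ext i
    simp only [Pi.add_apply, Pi.smul_apply, smul_eq_mul]
    grind
  have hya : f ((f x a) • y + (f x y + c y * f x a) • a) a = 0 := by
    rw [hb.add_left, hb.smul_left, hb.smul_left, hy, hf.alternating]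
    simp
  rw [e1, hQ.add, hQy _ hya, N.C.hca _ _ (by rw [hb.smul_left, hy, mul_zero]), hh _ hy]
  simp only [hb.add_right, hb.smul_right, hf.alternating]
  grind

/-- Theorem B, from homogeneity and `P2`. -/
theorem form_of_P2 {b : ι → F} (hb₀ : Ga L a b) (hba : f b a = 1)
    (hh : ∀ y, f y a = 0 → ∀ s : F, c (s • y) = s ^ 2 * c y)
    (hP1 : ∀ v, Ga L a v → f v a = 0 → (∀ s : F, v ≠ s • a) → c v = 0)
    (hP2 : ∀ x, Ga L a x → f x a = 1 → f b (x + b) + c (x + b) = 0) :
    ∃ Q : (ι → F) → F, IsQ f Q ∧ Q a = 0 ∧ (∀ y, f y a = 0 → Q y = c y) ∧ ∀ g ∈ L, ∀ x, Q (g ⋆ x) = Q x := by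
  have hf := N.C.hf
  have hb := hf.bilinear
  have hQ := Cx.isQ_Qe N.C hba hh 0
  set Q := Cx.Qe f a b c 0 with hQdef
  have hQy : ∀ y, f y a = 0 → Q y = c y := by
    intro y hy
    simp only [hQdef, Cx.Qe, hy, zero_smul, add_zero, zero_mul]
    simp
  have hQa : Q a = 0 := by
    rw [hQy a (hf.alternating a)]
    have := Cx.c_smul_a N.C 1
    rwa [one_smul] at this
  have hQb : Q b = 0 := by
    simp only [hQdef, Cx.Qe, hba, hf.alternating, one_smul, vadd_self, Cx.c_zero N.C]
    simp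
  have hvan : ∀ v, Ga L a v → Q v = 0 := by
    intro v hv
    by_cases hva : f v a = 0
    · by_cases hpar : ∃ s : F, v = s • a
      · obtain ⟨s, rfl⟩ := hpar
        rw [hQ.smul, hQa, mul_zero]
      · push Not at hpar
        rw [hQy v hva, hP1 v hv hva hpar]
    · set μ := f v a with hμ
      have h1 : Ga L a (μ⁻¹ • v) := Ga_smul hv (inv_ne_zero hva)
      have h2 : f (μ⁻¹ • v) a = 1 := by
        rw [hb.smul_left, ← hμ, inv_mul_cancel₀ hva]
      have h3 := hP2 _ h1 h2
      set x := μ⁻¹ • v with hx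
      set y := x + b with hy
      have hya : f y a = 0 := by
        rw [hy, hb.add_left, h2, hba]
        exact CharTwo.add_self_eq_zero 1
      have e1 : Gf f a y (c y) b = x := by
        simp only [Gf, hba, one_smul, mul_one]
        have e2 : f b y + c y = 0 := h3
        have : (f b y) • a + (c y) • a = (0 : ι → F) := by
          rw [← add_smul, e2, zero_smul]
        ext i
        have h4 := congrFun this i
        simp only [Pi.add_apply, Pi.smul_apply, smul_eq_mul, Pi.zero_apply] at h4 ⊢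
        rw [hy]
        simp only [Pi.add_apply]
        grind
      have h4 : Q x = 0 := by
        rw [← e1]
        have := Qe_Gf N hba hh 0 hya b
        rw [hQdef] at hQb ⊢
        rw [this, hQb]
      have e3 : v = μ • x := by
        rw [hx, smul_smul, mul_inv_cancel₀ hva, one_smul]
      rw [e3, hQ.smul, h4, mul_zero]
  refine ⟨Q, hQ, hQa, hQy, fun g hg => ?_⟩
  have hspan := Cx.span_top N.C {v | Ga L a v} (fun g hg x hx => Ga_L hx hg) ⟨a, Ga_self N, N.C.ha⟩
  refine Cx.Q_pres hf hQ (N.C.hL g hg) _ hspan ?_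
  intro x hx
  rw [hvan _ hx, hvan _ (Ga_L hx hg)]

/-- There is a vector of `Γ` off `a^⊥`. -/
theorem exists_b : ∃ b, Ga L a b ∧ f b a = 1 := by
  have hf := N.C.hf
  obtain ⟨x, hx, hne⟩ := exists_off hf N.C.hirr {v | Ga L a v} (fun g hg x hx => Ga_L hx hg)
    ⟨a, Ga_self N, N.C.ha⟩ N.C.ha
  refine ⟨(f x a)⁻¹ • x, Ga_smul hx (inv_ne_zero hne), ?_⟩
  rw [hf.bilinear.smul_left, inv_mul_cancel₀ hne]

/-- Theorem B. -/
theorem thmB (hq : (∃ t : F, t ≠ 0 ∧ t ≠ 1) ∨ 6 ≤ Fintype.card ι) (hn : Fintype.card ι = 4 ∨ 6 ≤ Fintype.card ι) :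
    ∃ Q : (ι → F) → F, IsQ f Q ∧ Q a = 0 ∧ (∀ y, f y a = 0 → Q y = c y) ∧ ∀ g ∈ L, ∀ x, Q (g ⋆ x) = Q x := by
  obtain ⟨b, hb₀, hba⟩ := exists_b N
  have hP1 : ∀ v, Ga L a v → f v a = 0 → (∀ s : F, v ≠ s • a) → c v = 0 := by
    intro v hv hva hpar
    have h4 := P1 N hq (Ga_self N) hv hva hpar 1
    rw [one_smul] at h4
    exact uniq N N.C.ha hva (N.C.hc _ hva) h4
  by_cases hZ : ∃ z, f z a = 0 ∧ (∀ s : F, z ≠ s • a) ∧ c z = 0
  · obtain ⟨z, hz, hna, hcz⟩ := hZ
    refine form_of_P2 N hb₀ hba ?_ hP1 (fun x hx hxa => P2_zero N hq hz hna hcz hb₀ hba hx hxa)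
    intro y hy s
    rcases hn with h4 | h6
    · exact hom_small N hq h4 hb₀ hba hz hna hcz hy s
    · exact hom_big N hq h6 hb₀ hba hy s
  · push Not at hZ
    exact form_of_P2 N hb₀ hba (fun y hy s => hom_anis N hq hZ hb₀ hba hy s) hP1
      (fun x hx hxa => P2_anis N hq hZ hb₀ hba hx hxa)

end NT

end Cfsg.Agent.Lib.H97XD
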