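import Mathlib
import Cfsg.Agent.Lib.H97XD

/-!
# Subgroups of an orthogonal group in characteristic two containing the Siegel elements
-/

set_option autoImplicit false
set_option linter.unusedSectionVars false
set_option linter.unusedVariables false
set_option linter.unusedSimpArgs false

namespace Cfsg.Agent.Lib.H97XE

open Matrix Cfsg Cfsg.Geo Cfsg.Agent.Lib.H97XA Cfsg.Agent.Lib.H97XB Cfsg.Agent.Lib.H97XC Cfsg.Agent.Lib.H97XC.NT
open Cfsg.Agent.Lib.SympT (GL_ext mulVec_mul_GL mulVec_inv_GL inv_mulVec_GL tvS tvS_apply)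

local notation:70 g:71 " ⋆ " x:70 => Matrix.mulVec (Units.val g) x

variable {ι : Type} [Fintype ι] [DecidableEq ι] {F : Type*} [Field F] [CharP F 2] [Fintype F]
  {f : (ι → F) → (ι → F) → F}

/-- The hypotheses. -/
structure QC (f : (ι → F) → (ι → F) → F) (L : Subgroup (GL ι F)) (a : ι → F) (Q : (ι → F) → F) : Prop where
  hf : IsSymplecticForm f
  card4 : 4 ≤ Fintype.card ι
  ha : a ≠ 0
  hQ : IsQ f Q
  hQa : Q a = 0
  hLQ : ∀ g ∈ L, ∀ x, Q (g ⋆ x) = Q x
  hG : ∀ y, f y a = 0 → Gg f L a y (Q y)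
  hirr : ∀ W : Submodule F (ι → F), (∀ g ∈ L, ∀ w ∈ W, g ⋆ w ∈ W) → W = ⊥ ∨ W = ⊤

/-- The rank of `g - 1`. -/
noncomputable def rk (g : GL ι F) : ℕ := ((g : Matrix ι ι F) - 1).rank

/-- The fixed space. -/
noncomputable def Fx (g : GL ι F) : Submodule F (ι → F) := LinearMap.ker (Matrix.mulVecLin ((g : Matrix ι ι F) - 1))

theorem mem_Fx {g : GL ι F} {x : ι → F} : x ∈ Fx g ↔ g ⋆ x = x := by
  rw [Fx, LinearMap.mem_ker, Matrix.mulVecLin_apply, Matrix.sub_mulVec, Matrix.one_mulVec, sub_eq_zero]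

theorem rk_add (g : GL ι F) : rk g + Module.finrank F (Fx g) = Fintype.card ι := by
  have := LinearMap.finrank_range_add_finrank_ker (Matrix.mulVecLin ((g : Matrix ι ι F) - 1))
  rw [Module.finrank_fintype_fun_eq_card] at this
  exact this

theorem finrank_sup_one {W : Submodule F (ι → F)} {v : ι → F} (hv : v ∉ W) :
    Module.finrank F (W ⊔ Submodule.span F {v} : Submodule F (ι → F)) = Module.finrank F W + 1 := by
  have h0 : v ≠ 0 := fun h => hv (by rw [h]; exact W.zero_mem)
  have h1 := Submodule.finrank_sup_add_finrank_inf_eq W (Submodule.span F {v})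
  have h2 : W ⊓ Submodule.span F {v} = ⊥ := by
    rw [eq_bot_iff]
    rintro x ⟨hx1, hx2⟩
    obtain ⟨s, rfl⟩ := Submodule.mem_span_singleton.1 hx2
    by_cases hs : s = 0
    · simp [hs]
    · exfalso
      apply hv
      have := W.smul_mem s⁻¹ hx1
      rwa [smul_smul, inv_mul_cancel₀ hs, one_smul] at this
  rw [h2, finrank_bot, add_zero, finrank_span_singleton h0] at h1
  exact h1

/-- `f`-preservation. -/
theorem pres_of_Q {Q : (ι → F) → F} (hQ : IsQ f Q) {g : GL ι F} (h : ∀ x, Q (g ⋆ x) = Q x) (x y : ι → F) :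
    f (g ⋆ x) (g ⋆ y) = f x y := by
  have h1 := hQ.add (g ⋆ x) (g ⋆ y)
  have h2 := hQ.add x y
  rw [← mulVec_add, h, h, h, h2] at h1
  have h3 : (2 : F) = 0 := two0
  grind

/-- The orthogonal group: `T_v` for a vector of norm one. -/
theorem tv_OQ {Q : (ι → F) → F} (hf : IsSymplecticForm f) (hQ : IsQ f Q) {v : ι → F} (hv : Q v = 1) (x : ι → F) :
    Q ((tvS hf v 1 : GL ι F) ⋆ x) = Q x := by
  rw [tvS_apply, hQ.add, hQ.smul, hv, one_mul, hf.bilinear.smul_right]
  grind

theorem mul_OQ {Q : (ι → F) → F} {g h : GL ι F} (hg : ∀ x, Q (g ⋆ x) = Q x) (hh : ∀ x, Q (h ⋆ x) = Q x) (x : ι → F) :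
    Q ((g * h : GL ι F) ⋆ x) = Q x := by
  rw [mulVec_mul_GL, hg, hh]

theorem inv_OQ {Q : (ι → F) → F} {g : GL ι F} (hg : ∀ x, Q (g ⋆ x) = Q x) (x : ι → F) :
    Q ((g⁻¹ : GL ι F) ⋆ x) = Q x := by
  rw [← hg, mulVec_inv_GL]

variable {L : Subgroup (GL ι F)} {a : ι → F} {Q : (ι → F) → F}

namespace QC

variable (H : QC f L a Q)
include H

theorem hLf : ∀ g ∈ L, ∀ x y, f (g ⋆ x) (g ⋆ y) = f x y := fun g hg => pres_of_Q H.hQ (H.hLQ g hg)

theorem Q_zero : Q 0 = 0 := by
  have := H.hQ.smul 0 0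
  simpa using this

/-- The vectors whose Siegel elements lie in `L`. -/
def Good (f : (ι → F) → (ι → F) → F) (L : Subgroup (GL ι F)) (Q : (ι → F) → F) (e : ι → F) : Prop :=
  e ≠ 0 ∧ Q e = 0 ∧ ∀ y, f y e = 0 → Gg f L e y (Q y)

theorem Good_L {e : ι → F} (he : Good f L Q e) {g : GL ι F} (hg : g ∈ L) : Good f L Q (g ⋆ e) := by
  obtain ⟨h0, h1, h2⟩ := he
  refine ⟨fun h => h0 (GL_inj g h), by rw [H.hLQ g hg, h1], fun y hy => ?_⟩
  have hy' : f ((g⁻¹ : GL ι F) ⋆ y) e = 0 := by
    rw [f_inv_left (hLf H g hg), hy]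
  have h3 := Gg_conj (hLf H) hg (h2 _ hy')
  rw [mulVec_inv_GL, inv_OQ (H.hLQ g hg)] at h3
  exact h3

theorem Good_smul {e : ι → F} (he : Good f L Q e) {s : F} (hs : s ≠ 0) : Good f L Q (s • e) := by
  obtain ⟨h0, h1, h2⟩ := he
  refine ⟨smul_ne_zero hs h0, by rw [H.hQ.smul, h1, mul_zero], fun y hy => ?_⟩
  refine (Gg_smul_v H.hf).2 ?_
  have hb := H.hf.bilinear
  rw [hb.smul_right] at hy
  have hy' : f y e = 0 := by
    rcases mul_eq_zero.1 hy with h | h
    · exact absurd h hs
    · exact h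
  have := h2 (s • y) (by rw [hb.smul_left, hy', mul_zero])
  rwa [H.hQ.smul] at this

theorem Good_a : Good f L Q a := ⟨H.ha, H.hQa, H.hG⟩

/-- Off the orthogonal of a good vector. -/
theorem Good_off {v e : ι → F} (hv : Good f L Q v) (he : Q e = 0) (hev : f e v ≠ 0) : Good f L Q e := by
  have hf := H.hf
  have hb := hf.bilinear
  obtain ⟨b₀, hb₀, hne⟩ := exists_off hf H.hirr {x | Good f L Q x} (fun g hg x hx => Good_L H hx hg)
    ⟨a, Good_a H, H.ha⟩ hv.1
  set b := (f b₀ v)⁻¹ • b₀ with hbdef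
  have hbG : Good f L Q b := Good_smul H hb₀ (inv_ne_zero hne)
  have hbv : f b v = 1 := by rw [hbdef, hb.smul_left, inv_mul_cancel₀ hne]
  set e' := (f e v)⁻¹ • e with he'def
  have he'v : f e' v = 1 := by rw [he'def, hb.smul_left, inv_mul_cancel₀ hev]
  have he'Q : Q e' = 0 := by rw [he'def, H.hQ.smul, he, mul_zero]
  set y := e' + b with hy
  have hyv : f y v = 0 := by
    rw [hy, hb.add_left, he'v, hbv]
    exact CharTwo.add_self_eq_zero 1
  obtain ⟨g, hg, eg⟩ := hv.2.2 y hyv
  have h1 := Good_L H hbG hg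
  set t := f b y + Q y with ht
  have e1 : g ⋆ b = e' + t • v := by
    rw [eg]
    simp only [Gf, hbv, one_smul, mul_one, ht]
    rw [hy]
    ext i
    simp only [Pi.add_apply, Pi.smul_apply, smul_eq_mul]
    grind
  rw [e1] at h1
  have h2 : t = 0 := by
    have h3 := h1.2.1
    rw [H.hQ.add, H.hQ.smul t v, hv.2.1, he'Q, hb.smul_right, he'v] at h3
    simpa using h3
  rw [h2, zero_smul, add_zero] at h1
  have h3 := Good_smul H h1 (show f e v ≠ 0 from hev)
  rwa [he'def, smul_smul, mul_inv_cancel₀ hev, one_smul] at h3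

/-- All non-zero singular vectors are good. -/
theorem all_good {e : ι → F} (he0 : e ≠ 0) (he : Q e = 0) : Good f L Q e := by
  have hf := H.hf
  have hb := hf.bilinear
  by_cases hea : f e a = 0
  · by_cases hpar : ∃ s : F, e = s • a
    · obtain ⟨s, rfl⟩ := hpar
      have hs : s ≠ 0 := by
        rintro rfl
        rw [zero_smul] at he0
        exact he0 rfl
      exact Good_smul H (Good_a H) hs
    · push Not at hpar
      obtain ⟨b₁, h1, h2⟩ := exists_y2 hf H.ha hpar 1 1
      set t := Q b₁ with ht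
      set b' := b₁ + t • a with hb'
      have hb'Q : Q b' = 0 := by
        rw [hb', H.hQ.add, H.hQ.smul, H.hQa, hb.smul_right, h1]
        grind
      have hb'a : f b' a ≠ 0 := by
        rw [hb', hb.add_left, hb.smul_left, hf.alternating, h1]
        simp
      have hb'e : f e b' ≠ 0 := by
        rw [hb', hb.add_right, hb.smul_right, hea, sym hf e b₁, h2]
        simp
      exact Good_off H (Good_off H (Good_a H) hb'Q hb'a) he hb'e
  · exact Good_off H (Good_a H) he hea

/-- Products of two transvections. -/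
theorem tw_orth {v v' : ι → F} (hv : Q v = 1) (hv' : Q v' = 1) (h : f v v' = 0) (hne : v ≠ v') :
    Tw f L v v' := by
  have hf := H.hf
  have hb := hf.bilinear
  have hQe : Q (v + v') = 0 := by
    rw [H.hQ.add, hv, hv', h, add_zero]
    exact CharTwo.add_self_eq_zero 1
  have he0 : v + v' ≠ 0 := by
    intro h0
    apply hne
    ext i
    have := congrFun h0 i
    simp only [Pi.add_apply, Pi.zero_apply] at this
    exact CharTwo.add_eq_zero.1 this
  have hy : f v (v + v') = 0 := by rw [hb.add_right, hf.alternating, h, add_zero]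
  obtain ⟨g, hg, e⟩ := (all_good H he0 hQe).2.2 v hy
  refine ⟨g, hg, fun x => ?_⟩
  rw [e, hv]
  have h' : f v' v = 0 := by rw [sym hf, h]
  simp only [Gf, Tf, hb.add_left, hb.add_right, hb.smul_left, h']
  ext i
  simp only [Pi.add_apply, Pi.smul_apply, smul_eq_mul]
  grind

theorem tw_all {v v' : ι → F} (hv : Q v = 1) (hv' : Q v' = 1) : Tw f L v v' := by
  classical
  have hf := H.hf
  have hb := hf.bilinear
  by_cases heq : v = v'
  · subst heq
    exact ⟨1, L.one_mem, fun x => by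
      rw [Tw_symm.Tf_Tf_self' hf]
      simp⟩
  by_cases h : f v v' = 0
  · exact tw_orth H hv hv' h heq
  -- a vector of norm one orthogonal to both
  have hpq : f v ((f v v')⁻¹ • v') = 1 := by
    rw [hb.smul_right, inv_mul_cancel₀ h]
  obtain ⟨y₁, y₂, h1, h2, h3, h4, h5⟩ := hyp_pair1 hf hpq H.card4
  have hperp : ∀ y, f y v = 0 → f y ((f v v')⁻¹ • v') = 0 → f y v' = 0 := by
    intro y _ hy
    rw [hb.smul_right] at hy
    rcases mul_eq_zero.1 hy with h6 | h6
    · exact absurd h6 (inv_ne_zero h)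
    · exact h6
  have h2' := hperp y₁ h1 h2
  have h4' := hperp y₂ h3 h4
  have hw : ∃ w, Q w = 1 ∧ f w v = 0 ∧ f w v' = 0 := by
    by_cases hQ1 : Q y₁ = 0
    · by_cases hQ2 : Q y₂ = 0
      · refine ⟨y₁ + y₂, ?_, ?_, ?_⟩
        · rw [H.hQ.add, hQ1, hQ2, h5]
          simp
        · rw [hb.add_left, h1, h3, add_zero]
        · rw [hb.add_left, h2', h4', add_zero]
      · obtain ⟨r, hr⟩ := exists_sqrt (Q y₂)⁻¹
        refine ⟨r • y₂, ?_, ?_, ?_⟩
        · rw [H.hQ.smul, sq, hr, inv_mul_cancel₀ hQ2]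
        · rw [hb.smul_left, h3, mul_zero]
        · rw [hb.smul_left, h4', mul_zero]
    · obtain ⟨r, hr⟩ := exists_sqrt (Q y₁)⁻¹
      refine ⟨r • y₁, ?_, ?_, ?_⟩
      · rw [H.hQ.smul, sq, hr, inv_mul_cancel₀ hQ1]
      · rw [hb.smul_left, h1, mul_zero]
      · rw [hb.smul_left, h2', mul_zero]
  obtain ⟨w, hw1, hw2, hw3⟩ := hw
  have t1 : Tw f L v w := tw_orth H hv hw1 (by rw [sym hf, hw2]) (by
    rintro rfl
    exact h hw3)
  have t2 : Tw f L w v' := tw_orth H hw1 hv' hw3 (by
    rintro rfl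
    exact h (by rw [sym hf, hw2]))
  exact Tw_trans hf t1 t2

theorem tw_mem {v v' : ι → F} (hv : Q v = 1) (hv' : Q v' = 1) : tvS H.hf v 1 * tvS H.hf v' 1 ∈ L := by
  obtain ⟨g, hg, e⟩ := tw_all H hv hv'
  have : g = tvS H.hf v 1 * tvS H.hf v' 1 := by
    apply GL_ext
    intro x
    rw [e, mulVec_mul_GL, tvS_apply, tvS_apply]
    rfl
  rw [← this]
  exact hg

omit H in
/-- Reduction by a transvection. -/
theorem reduce_odd (hf : IsSymplecticForm f) (hQ : IsQ f Q) {g : GL ι F} (hg : ∀ x, Q (g ⋆ x) = Q x) {w : ι → F}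
    (hw : Q (g ⋆ w + w) ≠ 0) : ∃ v, Q v = 1 ∧ rk (tvS hf v 1 * g) + 1 = rk g := by
  have hb := hf.bilinear
  have h2 : (2 : F) = 0 := two0
  have hgf := pres_of_Q hQ hg
  set v := g ⋆ w + w with hv
  set χ := Q v with hχ
  have hχv : f w v = χ := by
    have h1 : χ = f (g ⋆ w) w := by
      rw [hχ, hv, hQ.add, hg]
      grind
    rw [h1, hv, hb.add_right, hf.alternating, add_zero, sym hf]
  obtain ⟨r, hr⟩ := exists_sqrt χ⁻¹
  have hr1 : r * r * χ = 1 := by rw [hr, inv_mul_cancel₀ hw]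
  refine ⟨r • v, by rw [hQ.smul, sq, hr1], ?_⟩
  set vh := r • v with hvh
  have hv0 : v ≠ 0 := by
    intro h
    rw [hχ, h, show Q 0 = 0 by simpa using hQ.smul 0 0] at hw
    exact hw rfl
  have hw' : w ∉ Fx g := by
    intro h
    rw [mem_Fx] at h
    apply hv0
    rw [hv, h]
    exact vadd_self w
  have hperp : ∀ x ∈ Fx g, f x v = 0 := by
    intro x hx
    rw [mem_Fx] at hx
    have h1 := hgf x w
    rw [hx] at h1
    rw [hv, hb.add_right, h1]
    exact CharTwo.add_self_eq_zero _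
  have hact : ∀ x, (tvS hf vh 1 * g) ⋆ x = g ⋆ x + (r * r * f (g ⋆ x) v) • v := by
    intro x
    rw [mulVec_mul_GL, tvS_apply, hvh, hb.smul_right, smul_smul]
    congr 2
    ring
  have heq : Fx (tvS hf vh 1 * g) = Fx g ⊔ Submodule.span F {w} := by
    apply le_antisymm
    · intro x hx
      rw [mem_Fx, hact] at hx
      set l := r * r * f (g ⋆ x) v with hl
      have h1 : x + l • w ∈ Fx g := by
        rw [mem_Fx, mulVec_add, mulVec_smul]
        have e1 : g ⋆ x = x + l • v := by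
          ext i
          have := congrFun hx i
          simp only [Pi.add_apply, Pi.smul_apply, smul_eq_mul] at this ⊢
          grind
        rw [e1, hv]
        ext i
        simp only [Pi.add_apply, Pi.smul_apply, smul_eq_mul]
        grind
      have e2 : x = (x + l • w) + l • w := by
        ext i
        simp only [Pi.add_apply, Pi.smul_apply, smul_eq_mul]
        grind
      rw [e2]
      exact Submodule.add_mem _ (Submodule.mem_sup_left h1)
        (Submodule.mem_sup_right (Submodule.smul_mem _ _ (Submodule.mem_span_singleton_self w)))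
    · rw [sup_le_iff, Submodule.span_singleton_le_iff_mem]
      constructor
      · intro x hx
        have h1 := hperp x hx
        rw [mem_Fx] at hx ⊢
        rw [hact, hx, h1]
        simp
      · rw [mem_Fx, hact]
        have e3 : f (g ⋆ w) v = χ := by
          have : g ⋆ w = v + w := by
            rw [hv]
            ext i
            simp only [Pi.add_apply]
            grind
          rw [this, hb.add_left, hf.alternating, zero_add, hχv]
        rw [e3, hr1, one_smul, hv]
        ext i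
        simp only [Pi.add_apply]
        grind
  have h1 := rk_add (tvS hf vh 1 * g)
  have h3 := rk_add g
  rw [heq, finrank_sup_one hw'] at h1
  omega

omit H in
/-- Fixed vectors are orthogonal to the image. -/
theorem exists_off_Fx (hf : IsSymplecticForm f) {Q : (ι → F) → F} (hQ : IsQ f Q) {g : GL ι F}
    (hg : ∀ x, Q (g ⋆ x) = Q x) {w : ι → F} (hw : g ⋆ w ≠ w) : ∃ w₂, f w (g ⋆ w₂ + w₂) ≠ 0 := by
  by_contra hcon
  push Not at hcon
  have hb := hf.bilinear
  have hgf := pres_of_Q hQ hg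
  -- `g⁻¹ w = w`
  have h1 : ∀ y, f ((g⁻¹ : GL ι F) ⋆ w + w) y = 0 := by
    intro y
    rw [hb.add_left, f_inv_left hgf]
    have := hcon y
    rw [hb.add_right] at this
    exact this
  have h2 : (g⁻¹ : GL ι F) ⋆ w + w = 0 := by
    by_contra h3
    obtain ⟨_, y, hy⟩ := hf.nondegenerate _ h3
    exact hy (h1 y)
  have h3 : (g⁻¹ : GL ι F) ⋆ w = w := by
    ext i
    have := congrFun h2 i
    simp only [Pi.add_apply, Pi.zero_apply] at this
    exact CharTwo.add_eq_zero.1 this
  apply hw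
  have := mulVec_inv_GL g w
  rwa [h3] at this

/-- Reduction by a Siegel element. -/
theorem reduce_even {g : GL ι F} (hg : ∀ x, Q (g ⋆ x) = Q x) (h0 : ∀ w, Q (g ⋆ w + w) = 0) (hne : g ≠ 1) :
    ∃ e y, e ≠ 0 ∧ Q e = 0 ∧ f y e = 0 ∧ Q y = 0 ∧ ∃ s ∈ L, (∀ x, s ⋆ x = Gf f e y 0 x) ∧ rk (s * g) + 2 = rk g := by
  have hf := H.hf
  have hb := hf.bilinear
  have hQ := H.hQ
  have h2 : (2 : F) = 0 := two0
  have hgf := pres_of_Q hQ hg
  have hne' : ∃ w, g ⋆ w ≠ w := by
    by_contra hcon
    push Not at hcon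
    apply hne
    apply GL_ext
    intro x
    rw [hcon x]
    simp
  obtain ⟨w₀, hw₀⟩ := hne'
  obtain ⟨w₂, hw₂⟩ := exists_off_Fx hf hQ hg hw₀
  set y := g ⋆ w₂ + w₂ with hy
  set w₁ := (f w₀ y)⁻¹ • w₀ with hw₁
  have hw₁y : f w₁ y = 1 := by rw [hw₁, hb.smul_left, inv_mul_cancel₀ hw₂]
  set e := g ⋆ w₁ + w₁ with he
  have hQe : Q e = 0 := h0 w₁
  have hQy : Q y = 0 := h0 w₂
  have hchi : ∀ w, f w (g ⋆ w + w) = Q (g ⋆ w + w) := by
    intro w
    have h1 : Q (g ⋆ w + w) = f (g ⋆ w) w := by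
      rw [hQ.add, hg]
      grind
    rw [h1, hb.add_right, hf.alternating, add_zero, sym hf]
  have hw₁e : f w₁ e = 0 := by rw [he, hchi, h0]
  have hw₂y : f w₂ y = 0 := by rw [hy, hchi, h0]
  have hey0 : Q (e + y) = 0 := by
    have := h0 (w₁ + w₂)
    have e1 : g ⋆ (w₁ + w₂) + (w₁ + w₂) = e + y := by
      rw [mulVec_add, he, hy]
      abel
    rwa [e1] at this
  have hey : f e y = 0 := by
    have := hQ.add e y
    rw [hey0, hQe, hQy] at this
    simpa using this.symm
  have hye : f y e = 0 := by rw [sym hf, hey]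
  have hw₂e : f w₂ e = 1 := by
    have h1 := hchi (w₁ + w₂)
    have e1 : g ⋆ (w₁ + w₂) + (w₁ + w₂) = e + y := by
      rw [mulVec_add, he, hy]
      abel
    rw [e1, hey0, hb.add_left, hb.add_right w₁ e y, hb.add_right w₂ e y, hw₁e, hw₁y, hw₂y] at h1
    grind
  have he0 : e ≠ 0 := by
    intro h
    rw [h, fz_r hf] at hw₂e
    exact zero_ne_one hw₂e
  have hgw₁ : g ⋆ w₁ = w₁ + e := by
    rw [he]
    ext i
    simp only [Pi.add_apply]
    grind
  have hgw₂ : g ⋆ w₂ = w₂ + y := by
    rw [hy]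
    ext i
    simp only [Pi.add_apply]
    grind
  obtain ⟨s, hs, es⟩ := (all_good H he0 hQe).2.2 y hye
  rw [hQy] at es
  refine ⟨e, y, he0, hQe, hye, hQy, s, hs, es, ?_⟩
  have hact : ∀ x, (s * g) ⋆ x = g ⋆ x + f (g ⋆ x) e • y + f (g ⋆ x) y • e := by
    intro x
    rw [mulVec_mul_GL, es]
    simp only [Gf, zero_mul, zero_smul, add_zero]
  have hperp : ∀ z, (∃ w, z = g ⋆ w + w) → ∀ x ∈ Fx g, f x z = 0 := by
    rintro z ⟨w, rfl⟩ x hx
    rw [mem_Fx] at hx
    have h1 := hgf x w
    rw [hx] at h1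
    rw [hb.add_right, h1]
    exact CharTwo.add_self_eq_zero _
  have hw₁F : w₁ ∉ Fx g := by
    intro h
    rw [mem_Fx] at h
    apply he0
    rw [he, h]
    exact vadd_self w₁
  have hw₂F : w₂ ∉ Fx g ⊔ Submodule.span F {w₁} := by
    intro h
    obtain ⟨x, hx, z, hz, hxz⟩ := Submodule.mem_sup.1 h
    obtain ⟨t, htz⟩ := Submodule.mem_span_singleton.1 hz
    have e0 : w₂ = x + t • w₁ := by rw [← hxz, htz]
    have e1 : y = t • e := by
      rw [hy, he, e0, mulVec_add, mulVec_smul, mem_Fx.1 hx]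
      ext i
      simp only [Pi.add_apply, Pi.smul_apply, smul_eq_mul]
      grind
    rw [e1, hb.smul_right, hw₁e, mul_zero] at hw₁y
    exact zero_ne_one hw₁y
  have heq : Fx (s * g) = (Fx g ⊔ Submodule.span F {w₁}) ⊔ Submodule.span F {w₂} := by
    apply le_antisymm
    · intro x hx
      rw [mem_Fx, hact] at hx
      set l := f (g ⋆ x) e with hl
      set n := f (g ⋆ x) y with hn
      have h1 : x + l • w₂ + n • w₁ ∈ Fx g := by
        rw [mem_Fx, mulVec_add, mulVec_add, mulVec_smul, mulVec_smul, hgw₁, hgw₂]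
        have e1 : g ⋆ x = x + l • y + n • e := by
          ext i
          have := congrFun hx i
          simp only [Pi.add_apply, Pi.smul_apply, smul_eq_mul] at this ⊢
          grind
        rw [e1]
        ext i
        simp only [Pi.add_apply, Pi.smul_apply, smul_eq_mul]
        grind
      have e2 : x = ((x + l • w₂ + n • w₁) + n • w₁) + l • w₂ := by
        ext i
        simp only [Pi.add_apply, Pi.smul_apply, smul_eq_mul]
        grind
      rw [e2]
      refine Submodule.add_mem _ (Submodule.mem_sup_left (Submodule.add_mem _ (Submodule.mem_sup_left h1)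
        (Submodule.mem_sup_right (Submodule.smul_mem _ _ (Submodule.mem_span_singleton_self w₁)))))
        (Submodule.mem_sup_right (Submodule.smul_mem _ _ (Submodule.mem_span_singleton_self w₂)))
    · rw [sup_le_iff, sup_le_iff, Submodule.span_singleton_le_iff_mem, Submodule.span_singleton_le_iff_mem]
      refine ⟨⟨?_, ?_⟩, ?_⟩
      · intro x hx
        have h1 := hperp e ⟨w₁, rfl⟩ x hx
        have h3 := hperp y ⟨w₂, rfl⟩ x hx
        rw [mem_Fx] at hx ⊢
        rw [hact, hx, h1, h3]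
        simp
      · rw [mem_Fx, hact, hgw₁]
        have e1 : f (w₁ + e) e = 0 := by rw [hb.add_left, hw₁e, hf.alternating, add_zero]
        have e2 : f (w₁ + e) y = 1 := by rw [hb.add_left, hw₁y, hey, add_zero]
        rw [e1, e2]
        ext i
        simp only [Pi.add_apply, Pi.smul_apply, smul_eq_mul]
        grind
      · rw [mem_Fx, hact, hgw₂]
        have e1 : f (w₂ + y) e = 1 := by rw [hb.add_left, hw₂e, hye, add_zero]
        have e2 : f (w₂ + y) y = 0 := by rw [hb.add_left, hw₂y, hf.alternating, add_zero]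
        rw [e1, e2]
        ext i
        simp only [Pi.add_apply, Pi.smul_apply, smul_eq_mul]
        grind
  have h1 := rk_add (s * g)
  have h3 := rk_add g
  rw [heq, finrank_sup_one hw₂F, finrank_sup_one hw₁F] at h1
  omega

/-- The induction. -/
theorem main_ind (n : ℕ) : ∀ g : GL ι F, (∀ x, Q (g ⋆ x) = Q x) → rk g = n →
    (Even n → g ∈ L) ∧ (¬ Even n → ∃ v, Q v = 1 ∧ tvS H.hf v 1 * g ∈ L) := by
  induction n using Nat.strong_induction_on with
  | _ n ih =>
    intro g hg hn
    have hf := H.hf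
    by_cases hg1 : g = 1
    · subst hg1
      have hn0 : n = 0 := by
        rw [← hn]
        simp [rk]
      subst hn0
      exact ⟨fun _ => L.one_mem, fun h => absurd (by simp) h⟩
    by_cases hw : ∃ w, Q (g ⋆ w + w) ≠ 0
    · obtain ⟨w, hw⟩ := hw
      obtain ⟨v, hv, hr⟩ := reduce_odd hf H.hQ hg hw
      have hOQ := mul_OQ (tv_OQ hf H.hQ hv) hg
      have hm : rk (tvS hf v 1 * g) < n := by omega
      obtain ⟨i1, i2⟩ := ih _ hm _ hOQ rfl
      constructor
      · intro hev
        have hno : ¬ Even (rk (tvS hf v 1 * g)) := by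
          intro h
          have : Even (rk (tvS hf v 1 * g) + 1) := by rw [hr, hn]; exact hev
          exact (Nat.even_add_one.1 this) h
        obtain ⟨v', hv', hm'⟩ := i2 hno
        have h1 := tw_mem H hv hv'
        have h3 := L.mul_mem h1 hm'
        have e1 : tvS hf v 1 * tvS hf v' 1 * (tvS hf v' 1 * (tvS hf v 1 * g)) = g := by
          have t1 : ∀ u : ι → F, tvS hf u 1 * tvS hf u 1 = 1 := by
            intro u
            rw [Cfsg.Agent.Lib.SympT.tvS_add, CharTwo.add_self_eq_zero, Cfsg.Agent.Lib.SympT.tvS_zero]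
          calc _ = tvS hf v 1 * (tvS hf v' 1 * tvS hf v' 1) * (tvS hf v 1 * g) := by group
            _ = g := by
              rw [t1, mul_one, ← mul_assoc, t1, one_mul]
        rwa [e1] at h3
      · intro hno
        have hev : Even (rk (tvS hf v 1 * g)) := by
          by_contra h
          apply hno
          rw [← hn, ← hr]
          exact Nat.even_add_one.2 h
        exact ⟨v, hv, i1 hev⟩
    · push Not at hw
      obtain ⟨e, y, he0, hQe, hye, hQy, s, hs, es, hr⟩ := reduce_even H hg hw hg1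
      have hOQ := mul_OQ (H.hLQ s hs) hg
      have hm : rk (s * g) < n := by omega
      obtain ⟨i1, i2⟩ := ih _ hm _ hOQ rfl
      have hpar : Even (rk (s * g)) ↔ Even n := by
        rw [← hn, ← hr]
        simp [Nat.even_add]
      constructor
      · intro hev
        have h1 := L.mul_mem (L.inv_mem hs) (i1 (hpar.2 hev))
        rwa [inv_mul_cancel_left] at h1
      · intro hno
        obtain ⟨v, hv, hm'⟩ := i2 (fun h => hno (hpar.1 h))
        refine ⟨v, hv, ?_⟩
        set T := tvS hf v 1 with hT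
        have hTQ : ∀ x, Q (T ⋆ x) = Q x := tv_OQ hf H.hQ hv
        have hTf : ∀ x y, f (T ⋆ x) (T ⋆ y) = f x y := pres_of_Q H.hQ hTQ
        -- the conjugate of `s`
        have hTe : T ⋆ e ≠ 0 := fun h => he0 (GL_inj T h)
        have hQTe : Q (T ⋆ e) = 0 := by rw [hTQ, hQe]
        have hyTe : f (T ⋆ y) (T ⋆ e) = 0 := by rw [hTf, hye]
        obtain ⟨s', hs', es'⟩ := (all_good H hTe hQTe).2.2 _ hyTe
        rw [hTQ, hQy] at es'
        have e1 : s' = T * s * T⁻¹ := by
          apply GL_ext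
          intro x
          rw [es', mulVec_mul_GL, mulVec_mul_GL, es]
          simp only [Gf, mulVec_add, mulVec_smul, mulVec_inv_GL, f_inv_left hTf, zero_mul, zero_smul, add_zero]
        have h1 := L.mul_mem (L.inv_mem hs') hm'
        have e2 : s'⁻¹ * (T * (s * g)) = T * g := by
          rw [e1]
          group
        rwa [e2] at h1

/-- The conclusion. -/
theorem final : (∀ g : GL ι F, (∀ x, Q (g ⋆ x) = Q x) → g ∈ L) ∨
    (∀ g : GL ι F, g ∈ L ↔ (∀ x, Q (g ⋆ x) = Q x) ∧ Even (rk g)) := by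
  have hf := H.hf
  have hI := fun g hg => main_ind H (rk g) g hg rfl
  by_cases hodd : ∃ g ∈ L, ¬ Even (rk g)
  · left
    obtain ⟨g₀, hg₀, hno⟩ := hodd
    obtain ⟨v, hv, hm⟩ := (hI g₀ (H.hLQ g₀ hg₀)).2 hno
    have hvL : tvS hf v 1 ∈ L := by
      have := L.mul_mem hm (L.inv_mem hg₀)
      rwa [mul_inv_cancel_right] at this
    intro g hg
    by_cases hev : Even (rk g)
    · exact (hI g hg).1 hev
    · obtain ⟨v', hv', hm'⟩ := (hI g hg).2 hev
      have h1 : tvS hf v' 1 ∈ L := by
        have h3 := L.mul_mem (tw_mem H hv' hv) hvL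
        have t1 : ∀ u : ι → F, tvS hf u 1 * tvS hf u 1 = 1 := by
          intro u
          rw [Cfsg.Agent.Lib.SympT.tvS_add, CharTwo.add_self_eq_zero, Cfsg.Agent.Lib.SympT.tvS_zero]
        rwa [mul_assoc, t1, mul_one] at h3
      have := L.mul_mem (L.inv_mem h1) hm'
      rwa [inv_mul_cancel_left] at this
  · right
    push Not at hodd
    intro g
    constructor
    · intro hg
      exact ⟨H.hLQ g hg, hodd g hg⟩
    · rintro ⟨h1, h2⟩
      exact (hI g h1).1 h2

end QC

end Cfsg.Agent.Lib.H97XE
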