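import Mathlib
import Cfsg.Agent.Lib.H97XE
import Cfsg.Agent.Lib.PCore

/-!
# A large subgroup of `O₂` of a point stabiliser without transvections gives a cocycle
-/

set_option autoImplicit false
set_option linter.unusedSectionVars false
set_option linter.unusedVariables false
set_option linter.unusedSimpArgs false

namespace Cfsg.Agent.Lib.H97XF

open Matrix Cfsg Cfsg.Geo Cfsg.Agent.Lib.H97XA Cfsg.Agent.Lib.H97XB Cfsg.Agent.Lib.H97XC Cfsg.Agent.Lib.H97XC.NT
  Cfsg.Agent.Lib.H97XE
open Cfsg.Agent.Lib.SympT (GL_ext mulVec_mul_GL mulVec_inv_GL inv_mulVec_GL tvS tvS_apply)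

local notation:70 g:71 " ⋆ " x:70 => Matrix.mulVec (Units.val g) x

variable {ι : Type} [Fintype ι] [DecidableEq ι] {F : Type*} [Field F] [CharP F 2] [Fintype F]
  {f : (ι → F) → (ι → F) → F} {a : ι → F}

instance : Fact (Nat.Prime 2) := ⟨Nat.prime_two⟩

/-- The orthogonal of a hyperbolic pair. -/
def Uab (hf : IsSymplecticForm f) (a b : ι → F) (hba : f b a = 1) : Submodule F (ι → F) where
  carrier := {u | f u a = 0 ∧ f u b = 0}
  add_mem' {x y} hx hy := by
    simp only [Set.mem_setOf_eq] at *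
    rw [hf.bilinear.add_left, hf.bilinear.add_left, hx.1, hx.2, hy.1, hy.2]
    simp
  zero_mem' := by
    simp only [Set.mem_setOf_eq]
    rw [fz_l hf, fz_l hf]
    simp
  smul_mem' c x hx := by
    simp only [Set.mem_setOf_eq] at *
    rw [hf.bilinear.smul_left, hf.bilinear.smul_left, hx.1, hx.2]
    simp

/-- The projection to the orthogonal of a hyperbolic pair. -/
def pr (f : (ι → F) → (ι → F) → F) (a b x : ι → F) : ι → F := x + f x a • b + f x b • a

theorem pr_mem (hf : IsSymplecticForm f) {b : ι → F} (hba : f b a = 1) (x : ι → F) : pr f a b x ∈ Uab hf a b hba := by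
  have hb := hf.bilinear
  have hab : f a b = 1 := by rw [sym hf, hba]
  constructor
  · simp only [pr, hb.add_left, hb.smul_left, hba, hf.alternating]
    grind
  · simp only [pr, hb.add_left, hb.smul_left, hab, hf.alternating]
    grind

/-- The subgroup of the stabiliser. -/
theorem O2_triv (hf : IsSymplecticForm f) (hcard : 4 ≤ Fintype.card ι) (ha : a ≠ 0) (H : Subgroup (GL ι F))
    (hH : ∀ g : GL ι F, g ∈ H ↔ ((∀ x y, f (g ⋆ x) (g ⋆ y) = f x y) ∧ g ⋆ a = a))
    {x : GL ι F} (hx : x ∈ (pCore 2 ↥H).map H.subtype) {y : ι → F} (hy : f y a = 0) : ∃ s : F, x ⋆ y = y + s • a := by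
  classical
  have hb := hf.bilinear
  obtain ⟨b, hba⟩ := exists_partner hf ha 1
  have hab : f a b = 1 := by rw [sym hf, hba]
  set U := Uab hf a b hba with hU
  set N := pCore 2 ↥H with hN
  -- the action of `N` on `U`
  have hp0 : ∀ (g : GL ι F), g ∈ H → ∀ v, f v a = 0 → pr f a b (g ⋆ v) = g ⋆ v + f (g ⋆ v) b • a := by
    intro g hg v hv
    have h1 := ((hH g).1 hg)
    have h2 : f (g ⋆ v) a = 0 := by
      have := h1.1 v a
      rw [h1.2, hv] at this
      exact this
    simp only [pr, h2, zero_smul, add_zero]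
  have hperp : ∀ u ∈ U, f u a = 0 := fun u hu => hu.1
  have hpra : ∀ v (s : F), f v a = 0 → pr f a b (v + s • a) = pr f a b v := by
    intro v s hv
    simp only [pr, hb.add_left, hb.smul_left, hf.alternating, hv, hab]
    ext i
    simp only [Pi.add_apply, Pi.smul_apply, smul_eq_mul]
    grind
  have hprU : ∀ u ∈ U, pr f a b u = u := by
    intro u hu
    simp only [pr, hu.1, hu.2, zero_smul, add_zero]
  have hprform : ∀ v, f v a = 0 → pr f a b v = v + f v b • a := by
    intro v hv
    simp only [pr, hv, zero_smul, add_zero]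
  letI act : MulAction ↥N ↥U :=
    { smul := fun g u => ⟨pr f a b (((g : ↥H) : GL ι F) ⋆ (u : ι → F)), pr_mem hf hba _⟩
      one_smul := by
        intro u
        apply Subtype.ext
        show pr f a b ((((1 : ↥N) : ↥H) : GL ι F) ⋆ (u : ι → F)) = u
        simp only [OneMemClass.coe_one, Units.val_one, Matrix.one_mulVec]
        exact hprU u u.2
      mul_smul := by
        intro g g' u
        apply Subtype.ext
        show pr f a b (((((g * g' : ↥N) : ↥H)) : GL ι F) ⋆ (u : ι → F)) =
          pr f a b (((g : ↥H) : GL ι F) ⋆ pr f a b (((g' : ↥H) : GL ι F) ⋆ (u : ι → F)))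
        have hg' := (g' : ↥H).2
        have hg := (g : ↥H).2
        rw [hp0 _ hg' _ (hperp _ u.2), mulVec_add, mulVec_smul, ((hH _).1 hg).2]
        have h3 : f (((g : ↥H) : GL ι F) ⋆ (((g' : ↥H) : GL ι F) ⋆ (u : ι → F))) a = 0 := by
          have h4 := ((hH _).1 hg).1 (((g' : ↥H) : GL ι F) ⋆ (u : ι → F)) a
          have h5 := ((hH _).1 hg').1 (u : ι → F) a
          rw [((hH _).1 hg).2] at h4
          rw [((hH _).1 hg').2, hperp _ u.2] at h5
          rw [h4, h5]
        rw [hpra _ _ h3]
        congr 1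
        simp only [Subgroup.coe_mul, Units.val_mul, Matrix.mulVec_mulVec] }
  have hsm : ∀ (g : ↥N) (u : ↥U), ((g • u : ↥U) : ι → F) = pr f a b (((g : ↥H) : GL ι F) ⋆ (u : ι → F)) := fun g u => rfl
  have hPG : IsPGroup 2 ↥N := Cfsg.Agent.Lib.PCore.isPGroup_pCore 2
  -- a non-trivial fixed point
  obtain ⟨y₁, y₂, h1, h2, h3, h4, h5⟩ := hyp_pair1 hf hba hcard
  have hy₁U : y₁ ∈ U := ⟨h2, h1⟩
  have hy₁0 : y₁ ≠ 0 := by
    intro h
    rw [h, fz_l hf] at h5
    exact zero_ne_one h5
  have hcardU : 2 ∣ Nat.card ↥U := by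
    have h6 : addOrderOf (⟨y₁, hy₁U⟩ : ↥U) = 2 := by
      apply addOrderOf_eq_prime
      · apply Subtype.ext
        show (2 : ℕ) • y₁ = 0
        rw [two_smul]
        exact vadd_self y₁
      · intro h
        exact hy₁0 (congrArg Subtype.val h)
    rw [← h6]
    exact addOrderOf_dvd_natCard _
  have h0fix : (0 : ↥U) ∈ MulAction.fixedPoints ↥N ↥U := by
    intro g
    apply Subtype.ext
    rw [hsm]
    simp only [ZeroMemClass.coe_zero, mulVec_zero]
    simp [pr, fz_l hf]
  obtain ⟨u, hu, hne⟩ := hPG.exists_fixed_point_of_prime_dvd_card_of_fixed_point ↥U hcardU h0fix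
  have hu0 : (u : ι → F) ≠ 0 := fun h => hne (Subtype.ext h.symm)
  -- the invariant subspace
  have hNx : ∀ (g : ↥N) (v : ι → F), f v a = 0 → ∃ s : F, ((g : ↥H) : GL ι F) ⋆ v = pr f a b (((g : ↥H) : GL ι F) ⋆ v) + s • a := by
    intro g v hv
    refine ⟨f (((g : ↥H) : GL ι F) ⋆ v) b, ?_⟩
    rw [hp0 _ (g : ↥H).2 v hv]
    ext i
    simp only [Pi.add_apply, Pi.smul_apply, smul_eq_mul]
    grind
  let P : (ι → F) → Prop := fun v => f v a = 0 ∧ ∀ g : ↥N, ∃ s : F, ((g : ↥H) : GL ι F) ⋆ v = v + s • a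
  have hPu : P u := by
    refine ⟨hperp _ u.2, fun g => ?_⟩
    obtain ⟨s, hs⟩ := hNx g u (hperp _ u.2)
    refine ⟨s, ?_⟩
    have := congrArg Subtype.val (hu g)
    rw [hsm] at this
    rw [hs, this]
  have hPadd : ∀ v w, P v → P w → P (v + w) := by
    intro v w hv hw
    refine ⟨by rw [hb.add_left, hv.1, hw.1, add_zero], fun g => ?_⟩
    obtain ⟨s, hs⟩ := hv.2 g
    obtain ⟨t, ht⟩ := hw.2 g
    refine ⟨s + t, ?_⟩
    rw [mulVec_add, hs, ht, add_smul]
    abel
  have hPsmul : ∀ (k : F) v, P v → P (k • v) := by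
    intro k v hv
    refine ⟨by rw [hb.smul_left, hv.1, mul_zero], fun g => ?_⟩
    obtain ⟨s, hs⟩ := hv.2 g
    refine ⟨k * s, ?_⟩
    rw [mulVec_smul, hs, smul_add, smul_smul]
  -- invariance under the stabiliser
  have hPH : ∀ (h : GL ι F), h ∈ H → ∀ v, P v → P (h ⋆ v) := by
    intro h hh v hv
    have h1' := (hH h).1 hh
    refine ⟨by
      have := h1'.1 v a
      rw [h1'.2, hv.1] at this
      exact this, fun g => ?_⟩
    have hnorm : (⟨h, hh⟩ : ↥H)⁻¹ * (g : ↥H) * (⟨h, hh⟩ : ↥H) ∈ N := by
      have hn : N.Normal := Cfsg.Agent.Lib.PCore.pCore_normal 2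
      have := hn.conj_mem (g : ↥H) g.2 (⟨h, hh⟩ : ↥H)⁻¹
      simpa using this
    obtain ⟨s, hs⟩ := hv.2 ⟨_, hnorm⟩
    refine ⟨s, ?_⟩
    have e1 : (((⟨h, hh⟩ : ↥H)⁻¹ * (g : ↥H) * (⟨h, hh⟩ : ↥H) : ↥H) : GL ι F) = h⁻¹ * ((g : ↥H) : GL ι F) * h := rfl
    rw [show (((⟨_, hnorm⟩ : ↥N) : ↥H) : GL ι F) = _ from e1] at hs
    have h6 := congrArg (fun w => h ⋆ w) hs
    simp only [mulVec_mul_GL, mulVec_inv_GL, mulVec_add, mulVec_smul, h1'.2] at h6
    exact h6
  -- transvections with centre orthogonal to `a` lie in the stabiliser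
  have hTH : ∀ (z : ι → F) (k : F), f z a = 0 → tvS hf z k ∈ H := by
    intro z k hz
    refine (hH _).2 ⟨fun x y => Cfsg.Agent.Lib.SympT.tvS_pres hf z k x y, ?_⟩
    rw [tvS_apply, sym hf a z, hz]
    simp
  have hPstep : ∀ v z, P v → f z a = 0 → f v z ≠ 0 → P z := by
    intro v z hv hz hne
    have h6 : ∀ k : F, P ((k * f v z) • z) := by
      intro k
      have h7 := hPH _ (hTH z k hz) v hv
      rw [tvS_apply] at h7
      have h8 := hPadd _ _ h7 hv
      have e : v + (k * f v z) • z + v = (k * f v z) • z := by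
        ext i
        simp only [Pi.add_apply, Pi.smul_apply, smul_eq_mul]
        grind
      rwa [e] at h8
    have h7 := h6 (f v z)⁻¹
    rwa [inv_mul_cancel₀ hne, one_smul] at h7
  have hPall : P y := by
    have hua : ∀ s : F, (u : ι → F) ≠ s • a := by
      intro s hs
      have h6 := congrArg (fun w => f w b) hs
      simp only [hb.smul_left, hab, mul_one] at h6
      have h7 : f (u : ι → F) b = 0 := u.2.2
      rw [h7] at h6
      rw [← h6, zero_smul] at hs
      exact hu0 hs
    by_cases h6 : f (u : ι → F) y = 0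
    · obtain ⟨z₁, h7, h8⟩ := exists_y2 hf ha hua 0 1
      have h9 : f (u : ι → F) z₁ ≠ 0 := by
        rw [sym hf, h8]
        exact one_ne_zero
      have h10 := hPstep _ _ hPu h7 h9
      have h11 : P (y + z₁) := hPstep _ _ hPu (by rw [hb.add_left, hy, h7, add_zero]) (by
        rw [hb.add_right, h6, zero_add]
        exact h9)
      have h12 := hPadd _ _ h11 h10
      have e : y + z₁ + z₁ = y := by
        rw [add_assoc, vadd_self, add_zero]
      rwa [e] at h12
    · exact hPstep _ _ hPu hy h6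
  obtain ⟨g, hgN, rfl⟩ := hx
  exact hPall.2 ⟨g, hgN⟩

/-- Elements trivial on `a^⊥ / a` have the form `g_a(y, c)`. -/
theorem form_of_triv (hf : IsSymplecticForm f) {x : GL ι F} (hx1 : ∀ u v, f (x ⋆ u) (x ⋆ v) = f u v) (hxa : x ⋆ a = a)
    (hxt : ∀ y, f y a = 0 → ∃ s : F, x ⋆ y = y + s • a) {b : ι → F} (hba : f b a = 1) (u : ι → F) :
    x ⋆ u = Gf f a (x ⋆ b + b) (f b (x ⋆ b + b)) u := by
  have hb := hf.bilinear
  have hab : f a b = 1 := by rw [sym hf, hba]
  set y := x ⋆ b + b with hy
  have hya : f y a = 0 := by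
    have := hx1 b a
    rw [hxa] at this
    rw [hy, hb.add_left, this]
    exact CharTwo.add_self_eq_zero _
  have hxb : x ⋆ b = b + y := by
    rw [hy]
    ext i
    simp only [Pi.add_apply]
    grind
  set z := u + f u a • b with hz
  have hza : f z a = 0 := by
    rw [hz, hb.add_left, hb.smul_left, hba, mul_one]
    exact CharTwo.add_self_eq_zero _
  obtain ⟨s, hs⟩ := hxt z hza
  have hay : f a y = 0 := by rw [sym hf, hya]
  have hs' : s = f z y := by
    have h1 := hx1 z b
    rw [hs, hxb] at h1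
    simp only [hb.add_left, hb.add_right, hb.smul_left, hab, hay] at h1
    grind
  have hu : u = z + f u a • b := by
    rw [hz]
    ext i
    simp only [Pi.add_apply, Pi.smul_apply, smul_eq_mul]
    grind
  have e1 : x ⋆ u = z + s • a + f u a • (b + y) := by
    conv_lhs => rw [hu]
    rw [mulVec_add, mulVec_smul, hs, hxb]
  rw [e1, hs', Gf]
  have e2 : f z y = f u y + f u a * f b y := by
    rw [hz, hb.add_left, hb.smul_left]
  rw [e2, hz]
  ext i
  simp only [Pi.add_apply, Pi.smul_apply, smul_eq_mul]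
  grind

/-- An element acting as a non-trivial transvection has `g - 1` of rank one. -/
theorem rank_tv (hf : IsSymplecticForm f) (ha : a ≠ 0) {k : F} (hk : k ≠ 0) {g : GL ι F}
    (hg : ∀ x, g ⋆ x = Tf f a k x) : ((g : Matrix ι ι F) - 1).rank = 1 := by
  have h1 : LinearMap.range (Matrix.mulVecLin ((g : Matrix ι ι F) - 1)) = Submodule.span F {a} := by
    apply le_antisymm
    · rintro _ ⟨x, rfl⟩
      rw [Matrix.mulVecLin_apply, Matrix.sub_mulVec, Matrix.one_mulVec, hg, Tf, add_sub_cancel_left]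
      exact Submodule.smul_mem _ _ (Submodule.mem_span_singleton_self a)
    · rw [Submodule.span_singleton_le_iff_mem]
      obtain ⟨x, hx⟩ := exists_partner hf ha k⁻¹
      refine ⟨x, ?_⟩
      rw [Matrix.mulVecLin_apply, Matrix.sub_mulVec, Matrix.one_mulVec, hg, Tf, add_sub_cancel_left, hx,
        mul_inv_cancel₀ hk, one_smul]
  show Module.finrank F (LinearMap.range (Matrix.mulVecLin ((g : Matrix ι ι F) - 1))) = 1
  rw [h1]
  exact finrank_span_singleton ha

/-- The output of the first step. -/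
theorem step0 (hf : IsSymplecticForm f) (hcard : 4 ≤ Fintype.card ι) (ha : a ≠ 0) (X : Subgroup (GL ι F))
    (hXG : ∀ x ∈ X, ∀ u v, f (x ⋆ u) (x ⋆ v) = f u v)
    (hXa : ∀ x ∈ X, x ⋆ a = a)
    (hXt : ∀ x ∈ X, ∀ y, f y a = 0 → ∃ s : F, x ⋆ y = y + s • a)
    (hXc : Nat.card ↥X = Fintype.card F ^ (Fintype.card ι - 2))
    (hntv : ∀ x ∈ X, ((x : Matrix ι ι F) - 1).rank ≠ 1) :
    ∃ c : (ι → F) → F, (∀ y, f y a = 0 → Gg f X a y (c y)) ∧
      (∀ y y', f y a = 0 → f y' a = 0 → c (y + y') = c y + c y' + f y y') ∧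
      (∀ y (s : F), f y a = 0 → c (y + s • a) = c y) := by
  classical
  have hb := hf.bilinear
  obtain ⟨b, hba⟩ := exists_partner hf ha 1
  have hab : f a b = 1 := by rw [sym hf, hba]
  have hform := fun x (hx : x ∈ X) => form_of_triv hf (hXG x hx) (hXa x hx) (hXt x hx) hba
  -- uniqueness of the scale
  have huniq : ∀ {y : ι → F} {k k' : F}, f y a = 0 → Gg f X a y k → Gg f X a y k' → k = k' := by
    intro y k k' hy h h'
    by_contra hne
    have h1 : k + k' ≠ 0 := fun h2 => hne (CharTwo.add_eq_zero.1 h2)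
    obtain ⟨g, hg, e⟩ := Tr_of_two hf hy h h'
    exact hntv g hg (rank_tv hf ha h1 e)
  set U := Uab hf a b hba with hU
  -- the map to `U`
  let Ph : ↥X → ↥U := fun x => ⟨pr f a b ((x : GL ι F) ⋆ b + b), pr_mem hf hba _⟩
  have hPhinj : Function.Injective Ph := by
    intro x x' h
    have h1 : pr f a b ((x : GL ι F) ⋆ b + b) = pr f a b ((x' : GL ι F) ⋆ b + b) := congrArg Subtype.val h
    set y := (x : GL ι F) ⋆ b + b with hy
    set y' := (x' : GL ι F) ⋆ b + b with hy'
    have hya : ∀ (g : GL ι F), g ∈ X → f (g ⋆ b + b) a = 0 := by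
      intro g hg
      have := hXG g hg b a
      rw [hXa g hg] at this
      rw [hb.add_left, this]
      exact CharTwo.add_self_eq_zero _
    have h2 : y' = y + (f y b + f y' b) • a := by
      have hy0 : f y a = 0 := hya _ x.2
      have hy0' : f y' a = 0 := hya _ x'.2
      have h3 : pr f a b y = y + f y b • a := by simp only [pr, hy0, zero_smul, add_zero]
      have h4 : pr f a b y' = y' + f y' b • a := by simp only [pr, hy0', zero_smul, add_zero]
      rw [h3, h4] at h1
      ext i
      have := congrFun h1 i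
      simp only [Pi.add_apply, Pi.smul_apply, smul_eq_mul] at this ⊢
      grind
    have g1 : Gg f X a y (f b y) := ⟨x, x.2, hform x x.2⟩
    have g2 : Gg f X a y' (f b y') := ⟨x', x'.2, hform x' x'.2⟩
    have g2' : Gg f X a y (f b y') := (Gg_add_smul hf (s := f y b + f y' b)).1 (by rw [← h2]; exact g2)
    have hk := huniq (hya _ x.2) g1 g2'
    apply Subtype.ext
    apply GL_ext
    intro u
    rw [hform x x.2, hform x' x'.2, ← hy, ← hy', ← hk, h2, Gf_add_smul hf]
  have hcardU : Nat.card ↥U = Fintype.card F ^ (Fintype.card ι - 2) := by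
    set W := Submodule.span F ({a, b} : Set (ι → F)) with hW
    have hUW : U = Cfsg.Agent.Lib.SympT.perp hf W := by
      ext u
      rw [Cfsg.Agent.Lib.SympT.mem_perp]
      constructor
      · intro hu w hw
        induction hw using Submodule.span_induction with
        | mem v hv =>
          rcases hv with rfl | rfl
          · rw [sym hf]; exact hu.1
          · rw [sym hf]; exact hu.2
        | zero => exact fz_l hf _
        | add p q _ _ hp hq => rw [hb.add_left, hp, hq, add_zero]
        | smul s p _ hp => rw [hb.smul_left, hp, mul_zero]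
      · intro h
        exact ⟨by rw [sym hf]; exact h a (Submodule.subset_span (by simp)),
          by rw [sym hf]; exact h b (Submodule.subset_span (by simp))⟩
    have hLI : LinearIndependent F ![a, b] := by
      rw [LinearIndependent.pair_iff]
      intro s t h
      have h1 := congrArg (fun w => f w a) h
      have h3 := congrArg (fun w => f w b) h
      simp only [hb.add_left, hb.smul_left, hba, hab, hf.alternating, mul_zero, mul_one, zero_add, add_zero, fz_l hf]
        at h1 h3
      exact ⟨h3, h1⟩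
    have hWr : Module.finrank F W = 2 := by
      have h1 := finrank_span_eq_card hLI
      have h2 : Set.range ![a, b] = {a, b} := by
        ext x
        simp [Fin.exists_fin_two, eq_comm, or_comm]
      rw [h2, Fintype.card_fin] at h1
      exact h1
    have hr := Cfsg.Agent.Lib.SympT.finrank_perp hf W
    rw [hWr, ← hUW] at hr
    rw [← hr, Module.natCard_eq_pow_finrank (K := F), Nat.card_eq_fintype_card]
  have hPhbij : Function.Bijective Ph := by
    rw [Nat.bijective_iff_injective_and_card]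
    exact ⟨hPhinj, by rw [hXc, hcardU]⟩
  -- every `y` lifts
  have hlift : ∀ y, f y a = 0 → ∃ k, Gg f X a y k := by
    intro y hy
    obtain ⟨x, hx⟩ := hPhbij.2 ⟨pr f a b y, pr_mem hf hba _⟩
    have h1 : pr f a b ((x : GL ι F) ⋆ b + b) = pr f a b y := congrArg Subtype.val hx
    set y' := (x : GL ι F) ⋆ b + b with hy'
    have hya : f y' a = 0 := by
      have := hXG x x.2 b a
      rw [hXa x x.2] at this
      rw [hy', hb.add_left, this]
      exact CharTwo.add_self_eq_zero _
    have h2 : y' = y + (f y b + f y' b) • a := by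
      have h3 : pr f a b y = y + f y b • a := by simp only [pr, hy, zero_smul, add_zero]
      have h4 : pr f a b y' = y' + f y' b • a := by simp only [pr, hya, zero_smul, add_zero]
      rw [h3, h4] at h1
      ext i
      have := congrFun h1 i
      simp only [Pi.add_apply, Pi.smul_apply, smul_eq_mul] at this ⊢
      grind
    have g1 : Gg f X a y' (f b y') := ⟨x, x.2, hform x x.2⟩
    rw [h2, Gg_add_smul hf] at g1
    exact ⟨_, g1⟩
  let c : (ι → F) → F := fun y => if h : f y a = 0 then (hlift y h).choose else 0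
  have hc : ∀ y, f y a = 0 → Gg f X a y (c y) := by
    intro y hy
    simp only [c, dif_pos hy]
    exact (hlift y hy).choose_spec
  refine ⟨c, hc, ?_, ?_⟩
  · intro y y' hy hy'
    have hyy' : f (y + y') a = 0 := by rw [hb.add_left, hy, hy', add_zero]
    exact huniq hyy' (hc _ hyy') (Gg_mul hf hy hy' (hc y hy) (hc y' hy'))
  · intro y s hy
    have hys : f (y + s • a) a = 0 := by
      rw [hb.add_left, hb.smul_left, hf.alternating, hy, mul_zero, add_zero]
    exact huniq hys (hc _ hys) ((Gg_add_smul hf).2 (hc y hy))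

end Cfsg.Agent.Lib.H97XF
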