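import Mathlib
import Cfsg.Agent.Lib.H97XF

/-!
# The case of dimension four over the field with two elements
-/

set_option autoImplicit false
set_option linter.unusedSectionVars false
set_option linter.unusedVariables false
set_option linter.unusedSimpArgs false

namespace Cfsg.Agent.Lib.H97XG

open Matrix Cfsg Cfsg.Geo Cfsg.Agent.Lib.H97XA Cfsg.Agent.Lib.H97XB Cfsg.Agent.Lib.H97XC Cfsg.Agent.Lib.H97XC.NT
  Cfsg.Agent.Lib.H97XD Cfsg.Agent.Lib.H97XD.NT Cfsg.Agent.Lib.H97XE
open Cfsg.Agent.Lib.SympT (GL_ext mulVec_mul_GL mulVec_inv_GL inv_mulVec_GL tvS tvS_apply)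

local notation:70 g:71 " ⋆ " x:70 => Matrix.mulVec (Units.val g) x

/-- A large proper subgroup of the symmetric group of degree six. -/
theorem s6_lemma (P : Subgroup (Equiv.Perm (Fin 6))) (hP : P ≠ ⊤) (hc : 120 ≤ Nat.card P) :
    P = alternatingGroup (Fin 6) ∨ Nonempty (P ≃* Equiv.Perm (Fin 5)) := by
  classical
  have hcard : Nat.card (Equiv.Perm (Fin 6)) = 720 := by
    rw [Nat.card_eq_fintype_card, Fintype.card_perm, Fintype.card_fin]
    rfl
  have hi := P.card_mul_index
  rw [hcard] at hi
  set i := P.index with hidef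
  have hi6 : i ≤ 6 := by
    by_contra h
    have : 7 ≤ i := by omega
    have := Nat.mul_le_mul hc this
    omega
  have hi1 : i ≠ 1 := fun h => hP (Subgroup.index_eq_one.1 h)
  have hi0 : i ≠ 0 := by
    intro h
    rw [h] at hi
    omega
  let φ := MulAction.toPermHom (Equiv.Perm (Fin 6)) (Equiv.Perm (Fin 6) ⧸ P)
  have hker : φ.ker = P.normalCore := (Subgroup.normalCore_eq_ker P).symm
  by_cases hN : Nontrivial P.normalCore
  · left
    have h1 : alternatingGroup (Fin 6) ≤ P.normalCore :=
      Equiv.Perm.alternatingGroup_le_of_normal (by simp) hN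
    have h2 : alternatingGroup (Fin 6) ≤ P := h1.trans (Subgroup.normalCore_le P)
    have h3 : i ∣ 2 := by
      have := Subgroup.index_dvd_of_le h2
      rwa [show (alternatingGroup (Fin 6)).index = 2 from alternatingGroup.index_eq_two] at this
    have h4 : i = 2 := by
      have := Nat.le_of_dvd (by norm_num) h3
      omega
    rw [h4] at hi
    have h5 : Nat.card P = 360 := by omega
    have h6 : Nat.card (alternatingGroup (Fin 6)) = 360 := by
      have h7 := (alternatingGroup (Fin 6)).card_mul_index
      rw [show (alternatingGroup (Fin 6)).index = 2 from alternatingGroup.index_eq_two, hcard] at h7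
      omega
    exact (Subgroup.eq_of_le_of_card_ge h2 (by rw [h5, h6])).symm
  · right
    have hbot : P.normalCore = ⊥ := by
      by_contra h
      exact hN ((Subgroup.nontrivial_iff_ne_bot _).2 h)
    have hinj : Function.Injective φ := by
      rw [← MonoidHom.ker_eq_bot_iff, hker, hbot]
    have hfin : Finite (Equiv.Perm (Fin 6) ⧸ P) := inferInstance
    have hcardC : Nat.card (Equiv.Perm (Fin 6) ⧸ P) = i := rfl
    have hle := Nat.card_le_card_of_injective φ hinj
    rw [hcard, Nat.card_perm, hcardC] at hle
    have hi6' : i = 6 := by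
      by_contra h
      have h1 : i ≤ 5 := by omega
      have := Nat.factorial_le h1
      have h2 : Nat.factorial 5 = 120 := rfl
      omega
    letI : Fintype (Equiv.Perm (Fin 6) ⧸ P) := Fintype.ofFinite _
    let pt : Equiv.Perm (Fin 6) ⧸ P := QuotientGroup.mk 1
    have hfix : ∀ g : Equiv.Perm (Fin 6), g ∈ P ↔ φ g pt = pt := by
      intro g
      show _ ↔ (g • pt = pt)
      have : g • pt = QuotientGroup.mk (g * 1) := rfl
      rw [this, QuotientGroup.eq]
      simp
    let D := {c : Equiv.Perm (Fin 6) ⧸ P // c ≠ pt}
    have hperm : ∀ g : P, ∀ c, (c ≠ pt) ↔ (φ g.1 c ≠ pt) := by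
      intro g c
      have h1 := (hfix g.1).1 g.2
      constructor
      · intro h h2
        apply h
        have := (φ g.1).injective (h2.trans h1.symm)
        exact this
      · intro h h2
        apply h
        rw [h2, h1]
    let ρ : P →* Equiv.Perm D :=
      { toFun := fun g => (φ g.1).subtypePerm (fun c => (hperm g c).symm)
        map_one' := by
          ext c
          simp
        map_mul' := by
          intro g g'
          ext c
          simp }
    have hρinj : Function.Injective ρ := by
      intro g g' h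
      apply Subtype.ext
      apply hinj
      ext c
      by_cases hc : c = pt
      · rw [hc, (hfix g.1).1 g.2, (hfix g'.1).1 g'.2]
      · have := congrArg (fun τ : Equiv.Perm D => ((τ ⟨c, hc⟩ : D) : Equiv.Perm (Fin 6) ⧸ P)) h
        exact this
    have hcardD : Nat.card D = 5 := by
      rw [Nat.card_eq_fintype_card, Fintype.card_subtype_compl, Fintype.card_subtype_eq, ← Nat.card_eq_fintype_card,
        hcardC, hi6']
    have hcardP : Nat.card P = 120 := by
      rw [hi6'] at hi
      omega
    have hbij : Function.Bijective ρ := by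
      rw [Nat.bijective_iff_injective_and_card]
      refine ⟨hρinj, ?_⟩
      rw [Nat.card_perm, hcardD, hcardP]
      rfl
    let E₁ := MulEquiv.ofBijective ρ hbij
    exact ⟨E₁.trans (Equiv.permCongrHom (Finite.equivFinOfCardEq hcardD))⟩

variable {ι : Type} [Fintype ι] [DecidableEq ι] {F : Type*} [Field F] [CharP F 2] [Fintype F]
  {f : (ι → F) → (ι → F) → F} {L : Subgroup (GL ι F)} {a : ι → F} {c : (ι → F) → F}

theorem f2_all (hF : Fintype.card F = 2) (t : F) : t = 0 ∨ t = 1 := by
  by_contra h
  push Not at h
  have h3 : 2 < Fintype.card F := Fintype.two_lt_card_iff.2 ⟨0, 1, t, zero_ne_one, h.1.symm, h.2.symm⟩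
  omega

/-- The dichotomy in dimension four over the field with two elements. -/
theorem thmC (N : NT f L a c) (hF : Fintype.card F = 2) (hcard : Fintype.card ι = 4) {X : Subgroup (GL ι F)}
    (hXL : X ≤ L) (hXa : ∀ x ∈ X, x ⋆ a = a) (hXt : ∀ x ∈ X, ∀ y, f y a = 0 → ∃ s : F, x ⋆ y = y + s • a)
    (hXc : Nat.card ↥X = 4) :
    (∃ Q : (ι → F) → F, IsQ f Q ∧ Q a = 0 ∧ (∀ y, f y a = 0 → Q y = c y) ∧ ∀ g ∈ L, ∀ x, Q (g ⋆ x) = Q x) ∨
      120 ≤ Nat.card ↥L := by
  classical
  have hq2 := f2_all (F := F) hF
  have hf := N.C.hf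
  have hb := hf.bilinear
  have ha := N.C.ha
  have hne1 : ∀ t : F, t ≠ 0 → t = 1 := fun t h => (hq2 t).resolve_left h
  have h11 : (1 : F) + 1 = 0 := CharTwo.add_self_eq_zero 1
  -- the orbit
  have hGa : ∀ v, Ga L a v → ∃ ℓ ∈ L, v = ℓ ⋆ a := by
    rintro v ⟨κ, hκ, ℓ, hℓ, rfl⟩
    refine ⟨ℓ, hℓ, ?_⟩
    rw [hne1 κ hκ, one_smul]
  by_cases hII : ∃ x, Ga L a x ∧ f x a = 1 ∧ Ga L a (x + a)
  · right
    obtain ⟨x, hx, hxa, hxa'⟩ := hII
    -- all vectors off `a^⊥`
    have hoff : ∀ u, f u a = 1 → Ga L a u := by
      intro u hu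
      set y := u + x with hy
      have hya : f y a = 0 := by
        rw [hy, hb.add_left, hu, hxa, h11]
      obtain ⟨g, hg, e⟩ := N.C.hc y hya
      have e1 : g ⋆ x = u + (f x y + c y) • a := by
        rw [e]
        simp only [Gf, hxa, one_smul, mul_one]
        rw [hy]
        ext i
        simp only [Pi.add_apply, Pi.smul_apply, smul_eq_mul]
        grind
      have e2 : g ⋆ a = a := by
        rw [e, Gf_of_perp hf (hf.alternating a), sym hf a y, hya, zero_smul, add_zero]
      rcases hq2 (f x y + c y) with h | h
      · have := Ga_L hx hg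
        rwa [e1, h, zero_smul, add_zero] at this
      · have := Ga_L hxa' hg
        rwa [mulVec_add, e1, e2, h, one_smul, add_assoc, vadd_self, add_zero] at this
    -- all non-zero vectors
    have hall : ∀ z, z ≠ 0 → Ga L a z := by
      intro z hz
      by_cases hza : f z a = 0
      · by_cases hpar : ∃ s : F, z = s • a
        · obtain ⟨s, rfl⟩ := hpar
          have hs : s ≠ 0 := by
            rintro rfl
            rw [zero_smul] at hz
            exact hz rfl
          exact Ga_smul (Ga_self N) hs
        · push Not at hpar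
          obtain ⟨u, h1, h2⟩ := exists_y2 hf ha hpar 1 0
          have g1 := hoff u h1
          have g2 := hoff (u + z) (by rw [hb.add_left, h1, hza, add_zero])
          have h3 : f (u + z) u = 0 := by
            rw [hb.add_left, hf.alternating, zero_add, sym hf, h2]
          have h4 := Ga_add N g1 g2 h3 (by
            intro s hs
            rcases hq2 s with rfl | rfl
            · rw [zero_smul] at hs
              have h5 := congrArg (fun w => f w a) hs
              simp only [hb.add_left, h1, hza, fz_l hf] at h5
              simp at h5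
            · rw [one_smul] at hs
              apply hz
              ext i
              have := congrFun hs i
              simp only [Pi.add_apply, Pi.zero_apply] at this ⊢
              grind) 1
          have e : u + z + (1 : F) • u = z := by
            rw [one_smul]
            ext i
            simp only [Pi.add_apply]
            grind
          rwa [e] at h4
      · exact hoff z (hne1 _ hza)
    -- the extra element of the stabiliser
    obtain ⟨y, hya, hcy⟩ := Cx.c_surj N.C 1
    have hypar : ∀ s : F, y ≠ s • a := by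
      intro s hs
      have := Cx.c_smul_a N.C s
      rw [← hs, hcy] at this
      exact one_ne_zero this
    have hy0 : y ≠ 0 := by
      intro h
      apply hypar 0
      rw [h, zero_smul]
    have gy := hall y hy0
    have hay : f a y = 0 := by rw [sym hf, hya]
    obtain ⟨k, hk⟩ := Ga_lift N gy (y := (1 : F) • a) (by rw [hb.smul_left, hay, mul_zero])
    have hg1 : Gg f L a ((1 : F) • y) 1 := by
      rw [one_smul, ← hcy]
      exact N.C.hc y hya
    have hT := T2_of N hya hg1 hk
    have hk1 : k = 1 := by
      rcases hq2 k with h | h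
      · exfalso
        rw [h] at hT
        exact one_ne_zero (T2_zero_r N ha hT)
      · exact h
    rw [hk1] at hT
    obtain ⟨h, hh, eh⟩ := hT
    have hha : h ⋆ a = a := by
      rw [eh, hf.alternating, hay]
      simp
    have hhX : h ∉ X := by
      intro hmem
      obtain ⟨z, h1, h2⟩ := exists_y2 hf ha hypar 0 1
      obtain ⟨s, hs⟩ := hXt h hmem z h1
      rw [eh, h1, h2] at hs
      apply hypar s
      ext i
      have := congrFun hs i
      simp only [Pi.add_apply, Pi.smul_apply, smul_eq_mul] at this ⊢
      grind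
    -- the count
    have hℓ : ∀ v : {v : ι → F // v ≠ 0}, ∃ ℓ ∈ L, (v : ι → F) = ℓ ⋆ a := fun v => hGa _ (hall _ v.2)
    choose ℓ hℓL hℓa using hℓ
    let Φ : {v : ι → F // v ≠ 0} × ↥X × Bool → ↥L := fun p =>
      ⟨ℓ p.1 * ((if p.2.2 then h else 1) * (p.2.1 : GL ι F)),
        L.mul_mem (hℓL _) (L.mul_mem (by split_ifs; exacts [hh, L.one_mem]) (hXL p.2.1.2))⟩
    have hΦa : ∀ p, ((Φ p : GL ι F)) ⋆ a = (p.1 : ι → F) := by
      rintro ⟨v, x, ε⟩
      show ((ℓ v * ((if ε then h else 1) * (x : GL ι F))) : GL ι F) ⋆ a = _
      rw [mulVec_mul_GL, mulVec_mul_GL, hXa _ x.2]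
      cases ε
      · simp [← hℓa]
      · simp [hha, ← hℓa]
    have hΦinj : Function.Injective Φ := by
      rintro ⟨v, x, ε⟩ ⟨v', x', ε'⟩ he
      have h1 := congrArg (fun g : ↥L => (g : GL ι F) ⋆ a) he
      simp only [hΦa] at h1
      have hv : v = v' := Subtype.ext h1
      subst hv
      have h2 : (if ε then h else 1) * (x : GL ι F) = (if ε' then h else 1) * (x' : GL ι F) := by
        have := congrArg Subtype.val he
        exact mul_left_cancel this
      cases ε <;> cases ε'
      · simp only [Bool.false_eq_true, if_false, one_mul] at h2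
        rw [Subtype.ext h2]
      · exfalso
        apply hhX
        simp only [Bool.false_eq_true, if_false, if_true, one_mul] at h2
        have : h = x * (x' : GL ι F)⁻¹ := by rw [h2]; group
        rw [this]
        exact X.mul_mem x.2 (X.inv_mem x'.2)
      · exfalso
        apply hhX
        simp only [Bool.false_eq_true, if_false, if_true, one_mul] at h2
        have : h = x' * (x : GL ι F)⁻¹ := by rw [← h2]; group
        rw [this]
        exact X.mul_mem x'.2 (X.inv_mem x.2)
      · simp only [if_true] at h2
        rw [Subtype.ext (mul_left_cancel h2)]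
    have hcardV : Nat.card {v : ι → F // v ≠ 0} = 15 := by
      rw [Nat.card_eq_fintype_card, Fintype.card_subtype_compl, Fintype.card_subtype_eq, Fintype.card_fun, hF, hcard]
      rfl
    have := Nat.card_le_card_of_injective Φ hΦinj
    rw [Nat.card_prod, Nat.card_prod, hcardV, hXc, Nat.card_eq_fintype_card (α := Bool), Fintype.card_bool] at this
    exact this
  · left
    push Not at hII
    obtain ⟨b, hb₀, hba⟩ := exists_b N
    have hab : f a b = 1 := by rw [sym hf, hba]
    have hh : ∀ y, f y a = 0 → ∀ s : F, c (s • y) = s ^ 2 * c y := by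
      intro y hy s
      rcases hq2 s with rfl | rfl
      · rw [zero_smul, Cx.c_zero N.C]
        simp
      · rw [one_smul]
        simp
    have hstar : ∀ u w, Ga L a u → Ga L a w → f w u = 1 → ¬ Ga L a (w + u) := by
      intro u w hu hw hwu hm
      obtain ⟨ℓ, hℓ, rfl⟩ := hGa u hu
      have g1 : Ga L a ((ℓ⁻¹ : GL ι F) ⋆ w) := Ga_L hw (L.inv_mem hℓ)
      have g2 : Ga L a ((ℓ⁻¹ : GL ι F) ⋆ (w + ℓ ⋆ a)) := Ga_L hm (L.inv_mem hℓ)
      rw [mulVec_add, inv_mulVec_GL] at g2
      exact hII _ g1 (by rw [f_inv_left (N.C.hL ℓ hℓ), hwu]) g2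
    refine form_of_P2 N hb₀ hba hh ?_ ?_
    · intro v hv hva hpar
      by_contra hcv
      have hcv1 : c v = 1 := hne1 _ hcv
      -- an element orthogonal to `a`, not to `b`
      obtain ⟨v', hv'G, hv'a, hv'b, hv'c⟩ : ∃ v', Ga L a v' ∧ f v' a = 0 ∧ f v' b = 1 ∧ c v' = 1 := by
        rcases hq2 (f v b) with h | h
        · refine ⟨v + (1 : F) • a, Ga_add N (Ga_self N) hv hva hpar 1, ?_, ?_, ?_⟩
          · rw [hb.add_left, hb.smul_left, hf.alternating, hva]
            simp
          · rw [hb.add_left, hb.smul_left, h, hab]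
            simp
          · rw [N.C.hca _ _ hva, hcv1]
        · exact ⟨v, hv, hva, h, hcv1⟩
      obtain ⟨g, hg, e⟩ := N.C.hc v' hv'a
      have h1 := Ga_L hb₀ hg
      have e1 : g ⋆ b = v' + b := by
        rw [e]
        have hbv' : f b v' = 1 := by rw [sym hf, hv'b]
        simp only [Gf, hba, hbv', hv'c, one_smul, mul_one]
        ext i
        simp only [Pi.add_apply]
        grind
      rw [e1] at h1
      exact hstar b v' hb₀ hv'G hv'b h1
    · intro x hx hxa
      set y := x + b with hy
      have hya : f y a = 0 := by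
        rw [hy, hb.add_left, hxa, hba, h11]
      by_contra ht
      have ht1 : f b y + c y = 1 := hne1 _ ht
      obtain ⟨g, hg, e⟩ := N.C.hc y hya
      have h1 := Ga_L hx hg
      have e1 : g ⋆ x = b + a := by
        rw [e]
        have e2 : f x y = f b y := by
          rw [hy, hb.add_right, hf.alternating, zero_add, hb.add_right, hf.alternating, add_zero, sym hf x b]
        have e3 : (f x y) • a + (c y) • a = a := by
          rw [← add_smul, e2, ht1, one_smul]
        simp only [Gf, hxa, one_smul, mul_one]
        ext i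
        have h4 := congrFun e3 i
        simp only [Pi.add_apply, Pi.smul_apply, smul_eq_mul] at h4 ⊢
        rw [hy]
        simp only [Pi.add_apply]
        grind
      rw [e1] at h1
      exact hII b hb₀ hba h1

end Cfsg.Agent.Lib.H97XG
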