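import Mathlib
import Cfsg.Agent.Lib.H97XG
import Cfsg.Agent.S0247

/-!
# Assembly: irreducible overgroups in the symplectic group of a large subgroup of `O₂` of a point stabiliser
-/

set_option autoImplicit false
set_option linter.unusedSectionVars false
set_option linter.unusedVariables false
set_option linter.unusedSimpArgs false

namespace Cfsg.Agent.Lib.H97XH

open Matrix Cfsg Cfsg.Geo Cfsg.Agent.Lib.H97XA Cfsg.Agent.Lib.H97XB Cfsg.Agent.Lib.H97XC Cfsg.Agent.Lib.H97XC.NT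
  Cfsg.Agent.Lib.H97XD Cfsg.Agent.Lib.H97XD.NT Cfsg.Agent.Lib.H97XE Cfsg.Agent.Lib.H97XF Cfsg.Agent.Lib.H97XG
open Cfsg.Agent.Lib.SympT (GL_ext mulVec_mul_GL mulVec_inv_GL inv_mulVec_GL tvS tvS_apply sympForm_isSymplectic spGL_le)

local notation:70 g:71 " ⋆ " x:70 => Matrix.mulVec (Units.val g) x

variable {F : Type*} [Field F] [CharP F 2] [Fintype F] {n : ℕ}

/-- The form. -/
def fF (n : ℕ) (F : Type*) [Field F] (u v : Fin n ⊕ Fin n → F) : F :=
  ∑ i : Fin n, (u (Sum.inl i) * v (Sum.inr i) + u (Sum.inr i) * v (Sum.inl i))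

theorem fF_eq : fF n F = sympForm n F := by
  funext u v
  rw [Cfsg.Agent.Lib.SympForm.sympForm_apply]
  refine Finset.sum_congr rfl fun i _ => ?_
  have h2 : (2 : F) = 0 := two0
  grind

theorem fF_symp : IsSymplecticForm (fF n F) := by
  rw [fF_eq]
  exact sympForm_isSymplectic

/-- The form from a function. -/
theorem exists_QF {f : (Fin n ⊕ Fin n → F) → (Fin n ⊕ Fin n → F) → F} (hf : IsSymplecticForm f)
    {Q : (Fin n ⊕ Fin n → F) → F} (hQ : IsQ f Q) :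
    ∃ Q' : QuadraticForm F (Fin n ⊕ Fin n → F), (⇑Q' = Q) ∧ ∀ u v, QuadraticMap.polar ⇑Q' u v = f u v := by
  have hb := hf.bilinear
  have hpol : ∀ u v, QuadraticMap.polar Q u v = f u v := by
    intro u v
    rw [QuadraticMap.polar, hQ.add]
    ring
  refine ⟨QuadraticMap.ofPolar Q (fun a x => by rw [hQ.smul, smul_eq_mul, sq]) (fun x x' y => by
      rw [hpol, hpol, hpol, hb.add_left]) (fun a x y => by
      rw [hpol, hpol, hb.smul_left, smul_eq_mul]), ?_, ?_⟩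
  · rfl
  · intro u v
    exact hpol u v

/-- The third alternative. -/
theorem third (hF : Fintype.card F = 2) (L : Subgroup (GL (Fin 2 ⊕ Fin 2) F))
    (hLG : ∀ g ∈ L, ∀ x y, sympForm 2 F (g ⋆ x) (g ⋆ y) = sympForm 2 F x y)
    {a : Fin 2 ⊕ Fin 2 → F} (hT : ¬ Tr (sympForm 2 F) L a 1) (h120 : 120 ≤ Nat.card ↥L) :
    Nonempty (↥L ≃* ↥(alternatingGroup (Fin 6))) ∨ Nonempty (↥L ≃* Equiv.Perm (Fin 5)) := by
  obtain ⟨Ψ⟩ := Cfsg.Agent.S0247.result (F := F) hF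
  let toSp : ↥L →* Matrix.symplecticGroup (Fin 2) F :=
    { toFun := fun g => ⟨((g : GL (Fin 2 ⊕ Fin 2) F) : Matrix (Fin 2 ⊕ Fin 2) (Fin 2 ⊕ Fin 2) F),
        (Cfsg.Agent.Lib.SympForm.mem_symplecticGroup_iff_preserves _).2 (hLG g g.2)⟩
      map_one' := rfl
      map_mul' := fun _ _ => rfl }
  have htoSp : Function.Injective toSp := by
    intro g g' h
    apply Subtype.ext
    apply Units.ext
    exact congrArg Subtype.val h
  let ψ : ↥L →* Equiv.Perm (Fin 6) := Ψ.toMonoidHom.comp toSp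
  have hψ : Function.Injective ψ := Ψ.injective.comp htoSp
  let E := MonoidHom.ofInjective hψ
  have hcardP : 120 ≤ Nat.card ↥ψ.range := by
    rw [← Nat.card_congr E.toEquiv]
    exact h120
  have hne : ψ.range ≠ ⊤ := by
    intro h
    apply hT
    have hsp : ((tvS sympForm_isSymplectic a (1 : F) : GL (Fin 2 ⊕ Fin 2) F) : Matrix (Fin 2 ⊕ Fin 2) (Fin 2 ⊕ Fin 2) F) ∈
        Matrix.symplecticGroup (Fin 2) F :=
      (Cfsg.Agent.Lib.SympForm.mem_symplecticGroup_iff_preserves _).2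
        (fun x y => Cfsg.Agent.Lib.SympT.tvS_pres sympForm_isSymplectic a 1 x y)
    have hmem : Ψ ⟨_, hsp⟩ ∈ ψ.range := by
      rw [h]
      trivial
    obtain ⟨g, hg⟩ := hmem
    have h1 : toSp g = ⟨_, hsp⟩ := Ψ.injective hg
    have h2 : ((g : GL (Fin 2 ⊕ Fin 2) F) : Matrix (Fin 2 ⊕ Fin 2) (Fin 2 ⊕ Fin 2) F) = _ := congrArg Subtype.val h1
    refine ⟨g, g.2, fun x => ?_⟩
    rw [h2, tvS_apply]
    rfl
  rcases s6_lemma ψ.range hne hcardP with h | h
  · left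
    exact ⟨E.trans (MulEquiv.subgroupCongr h)⟩
  · right
    obtain ⟨h'⟩ := h
    exact ⟨E.trans h'⟩

/-- The main theorem, for the standard form. -/
theorem main {n : ℕ} (hn : 2 ≤ n) (a : (Fin n ⊕ Fin n → F)) (ha : a ≠ 0)
    (X : Subgroup (GL (Fin n ⊕ Fin n) F)) (hXG : X ≤ Cfsg.preserving (Units.coeHom (Matrix (Fin n ⊕ Fin n) (Fin n ⊕ Fin n) F)) (fun u v : (Fin n ⊕ Fin n → F) => ∑ i : Fin n, (u (Sum.inl i) * v (Sum.inr i) + u (Sum.inr i) * v (Sum.inl i))))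
    (hXO : ∀ H : Subgroup (GL (Fin n ⊕ Fin n) F),
      (∀ g : GL (Fin n ⊕ Fin n) F, g ∈ H ↔ (g ∈ Cfsg.preserving (Units.coeHom (Matrix (Fin n ⊕ Fin n) (Fin n ⊕ Fin n) F)) (fun u v : (Fin n ⊕ Fin n → F) => ∑ i : Fin n, (u (Sum.inl i) * v (Sum.inr i) + u (Sum.inr i) * v (Sum.inl i))) ∧ Matrix.mulVec (g : Matrix (Fin n ⊕ Fin n) (Fin n ⊕ Fin n) F) a = a)) →
      X ≤ (Cfsg.pCore 2 ↥H).map H.subtype)
    (hcard : Nat.card ↥X = Fintype.card F ^ (2 * n - 2))
    (hntv : ∀ x ∈ X, ((x : Matrix (Fin n ⊕ Fin n) (Fin n ⊕ Fin n) F) - 1).rank ≠ 1)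
    (L : Subgroup (GL (Fin n ⊕ Fin n) F)) (hXL : X ≤ L) (hLG : L ≤ Cfsg.preserving (Units.coeHom (Matrix (Fin n ⊕ Fin n) (Fin n ⊕ Fin n) F)) (fun u v : (Fin n ⊕ Fin n → F) => ∑ i : Fin n, (u (Sum.inl i) * v (Sum.inr i) + u (Sum.inr i) * v (Sum.inl i))))
    (hirr : ∀ W : Submodule F (Fin n ⊕ Fin n → F), (∀ g ∈ L, ∀ w ∈ W, Matrix.mulVec (g : Matrix (Fin n ⊕ Fin n) (Fin n ⊕ Fin n) F) w ∈ W) → W = ⊥ ∨ W = ⊤) :
    L = Cfsg.preserving (Units.coeHom (Matrix (Fin n ⊕ Fin n) (Fin n ⊕ Fin n) F)) (fun u v : (Fin n ⊕ Fin n → F) => ∑ i : Fin n, (u (Sum.inl i) * v (Sum.inr i) + u (Sum.inr i) * v (Sum.inl i))) ∨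
    (∃ Q : QuadraticForm F (Fin n ⊕ Fin n → F), (∀ u v, QuadraticMap.polar ⇑Q u v = (fun u v : (Fin n ⊕ Fin n → F) => ∑ i : Fin n, (u (Sum.inl i) * v (Sum.inr i) + u (Sum.inr i) * v (Sum.inl i))) u v) ∧
      (L = Cfsg.isometryGroup F ⇑Q ∨
        ∀ g : GL (Fin n ⊕ Fin n) F, g ∈ L ↔ (g ∈ Cfsg.isometryGroup F ⇑Q ∧ Even ((g : Matrix (Fin n ⊕ Fin n) (Fin n ⊕ Fin n) F) - 1).rank))) ∨
    (Fintype.card F = 2 ∧ n = 2 ∧ (Nonempty (↥L ≃* ↥(alternatingGroup (Fin 6))) ∨ Nonempty (↥L ≃* Equiv.Perm (Fin 5)))) := by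
  classical
  set f := fF n F with hfdef
  have hf : IsSymplecticForm f := fF_symp
  have hb := hf.bilinear
  have hcardι : Fintype.card (Fin n ⊕ Fin n) = 2 * n := by
    simp [two_mul]
  have hcard4 : 4 ≤ Fintype.card (Fin n ⊕ Fin n) := by omega
  have hLf : ∀ g ∈ L, ∀ x y, f (g ⋆ x) (g ⋆ y) = f x y := fun g hg => hLG hg
  have hXf : ∀ g ∈ X, ∀ x y, f (g ⋆ x) (g ⋆ y) = f x y := fun g hg => hXG hg
  -- the stabiliser
  let H : Subgroup (GL (Fin n ⊕ Fin n) F) :=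
    { carrier := {g | g ∈ Cfsg.preserving (Units.coeHom (Matrix (Fin n ⊕ Fin n) (Fin n ⊕ Fin n) F)) f ∧ g ⋆ a = a}
      mul_mem' := by
        rintro g g' ⟨h1, h2⟩ ⟨h3, h4⟩
        refine ⟨Subgroup.mul_mem _ h1 h3, ?_⟩
        rw [mulVec_mul_GL, h4, h2]
      one_mem' := ⟨Subgroup.one_mem _, by simp⟩
      inv_mem' := by
        rintro g ⟨h1, h2⟩
        refine ⟨Subgroup.inv_mem _ h1, ?_⟩
        have := inv_mulVec_GL g a
        rwa [h2] at this }
  have hHm : ∀ g : GL (Fin n ⊕ Fin n) F, g ∈ H ↔ ((∀ x y, f (g ⋆ x) (g ⋆ y) = f x y) ∧ g ⋆ a = a) := fun g => Iff.rfl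
  have hXO' := hXO H (fun g => Iff.rfl)
  have hXH : ∀ x ∈ X, x ∈ H := by
    intro x hx
    obtain ⟨g, _, rfl⟩ := hXO' hx
    exact g.2
  have hXa : ∀ x ∈ X, x ⋆ a = a := fun x hx => (hXH x hx).2
  have hXt : ∀ x ∈ X, ∀ y, f y a = 0 → ∃ s : F, x ⋆ y = y + s • a :=
    fun x hx y hy => O2_triv hf hcard4 ha H hHm (hXO' hx) hy
  obtain ⟨c, hc, hcoc, hca⟩ := step0 hf hcard4 ha X hXf hXa hXt (by rw [hcard, hcardι]) hntv
  have hcL : ∀ y, f y a = 0 → Gg f L a y (c y) := by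
    intro y hy
    obtain ⟨g, hg, e⟩ := hc y hy
    exact ⟨g, hXL hg, e⟩
  have C : Cx f L a c := ⟨hf, hLf, hcard4, ha, hcL, hcoc, hca, hirr⟩
  -- from a form
  have fromQ : ∀ Q : (Fin n ⊕ Fin n → F) → F, IsQ f Q → Q a = 0 → (∀ y, f y a = 0 → Q y = c y) →
      (∀ g ∈ L, ∀ x, Q (g ⋆ x) = Q x) →
      (∃ Q : QuadraticForm F (Fin n ⊕ Fin n → F), (∀ u v, QuadraticMap.polar ⇑Q u v = (fun u v : (Fin n ⊕ Fin n → F) => ∑ i : Fin n, (u (Sum.inl i) * v (Sum.inr i) + u (Sum.inr i) * v (Sum.inl i))) u v) ∧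
      (L = Cfsg.isometryGroup F ⇑Q ∨
        ∀ g : GL (Fin n ⊕ Fin n) F, g ∈ L ↔ (g ∈ Cfsg.isometryGroup F ⇑Q ∧ Even ((g : Matrix (Fin n ⊕ Fin n) (Fin n ⊕ Fin n) F) - 1).rank))) := by
    intro Q hQ hQa hQy hLQ
    obtain ⟨Q', hQ', hpol⟩ := exists_QF hf hQ
    have H₀ : QC f L a Q := ⟨hf, hcard4, ha, hQ, hQa, hLQ, fun y hy => by
      rw [hQy y hy]
      exact hcL y hy, hirr⟩
    refine ⟨Q', hpol, ?_⟩
    have hiso : ∀ g : GL (Fin n ⊕ Fin n) F, g ∈ Cfsg.isometryGroup F ⇑Q' ↔ ∀ x, Q (g ⋆ x) = Q x := by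
      intro g
      rw [hQ']
      constructor
      · intro h x
        exact h x x
      · intro h x _
        exact h x
    rcases QC.final H₀ with h | h
    · left
      apply le_antisymm
      · intro g hg
        exact (hiso g).2 (hLQ g hg)
      · intro g hg
        exact h g ((hiso g).1 hg)
    · right
      intro g
      rw [hiso]
      exact h g
  have hsym : f = sympForm n F := fF_eq
  -- all transvections
  have fromT : (∀ v k, Tr f L v k) →
      L = Cfsg.preserving (Units.coeHom (Matrix (Fin n ⊕ Fin n) (Fin n ⊕ Fin n) F)) (fun u v : (Fin n ⊕ Fin n → F) => ∑ i : Fin n, (u (Sum.inl i) * v (Sum.inr i) + u (Sum.inr i) * v (Sum.inl i))) := by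
    intro hT
    apply le_antisymm hLG
    have hT' : ∀ v k, tvS (sympForm_isSymplectic (m := n) (F := F)) v k ∈ L := by
      intro v k
      obtain ⟨g, hg, e⟩ := hT v k
      have : g = tvS (sympForm_isSymplectic (m := n) (F := F)) v k := by
        apply GL_ext
        intro x
        rw [e, tvS_apply, Tf, hsym]
      rw [← this]
      exact hg
    intro g hg
    refine spGL_le L hT' ?_
    intro x y
    have := hg x y
    show sympForm n F _ _ = sympForm n F _ _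
    rw [← hsym]
    exact this
  by_cases hv : ∃ v k, v ≠ 0 ∧ k ≠ 0 ∧ Tr f L v k
  · rcases Cx.thmA C hv with h | ⟨Q, h1, h2, h3, h4⟩
    · exact Or.inl (fromT h)
    · exact Or.inr (Or.inl (fromQ Q h1 h2 h3 h4))
  · push Not at hv
    have N : NT f L a c := ⟨C, fun v k h1 h2 => hv v k h1 h2⟩
    by_cases h22 : Fintype.card F = 2 ∧ n = 2
    · obtain ⟨hF, rfl⟩ := h22
      have hXc : Nat.card ↥X = 4 := by
        rw [hcard, hF]
        norm_num
      rcases thmC N hF (by simp) hXL hXa hXt hXc with ⟨Q, h1, h2, h3, h4⟩ | h120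
      · exact Or.inr (Or.inl (fromQ Q h1 h2 h3 h4))
      · refine Or.inr (Or.inr ⟨hF, rfl, ?_⟩)
        have h5 : ¬ Tr (sympForm 2 F) L a 1 := by
          rw [← hsym]
          exact fun h => hv a 1 ha one_ne_zero h
        refine third hF L ?_ h5 h120
        rw [← hsym]
        exact hLf
    · have hq : (∃ t : F, t ≠ 0 ∧ t ≠ 1) ∨ 6 ≤ Fintype.card (Fin n ⊕ Fin n) := by
        by_cases hn2 : n = 2
        · left
          have h3 : Fintype.card F ≠ 2 := fun h => h22 ⟨h, hn2⟩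
          have h4 : 2 ≤ Fintype.card F := Fintype.one_lt_card
          have h5 : 2 < Fintype.card F := by omega
          obtain ⟨x, y, z, h6, h7, h8⟩ := Fintype.two_lt_card_iff.1 h5
          by_cases hx0 : x = 0
          · by_cases hy1 : y = 1
            · refine ⟨z, ?_, ?_⟩
              · rw [← hx0]
                exact h7.symm
              · rw [← hy1]
                exact h8.symm
            · refine ⟨y, ?_, hy1⟩
              rw [← hx0]
              exact h6.symm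
          · by_cases hx1 : x = 1
            · by_cases hy0 : y = 0
              · refine ⟨z, ?_, ?_⟩
                · rw [← hy0]
                  exact h8.symm
                · rw [← hx1]
                  exact h7.symm
              · refine ⟨y, hy0, ?_⟩
                rw [← hx1]
                exact h6.symm
            · exact ⟨x, hx0, hx1⟩
        · right
          omega
      have hnn : Fintype.card (Fin n ⊕ Fin n) = 4 ∨ 6 ≤ Fintype.card (Fin n ⊕ Fin n) := by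
        omega
      obtain ⟨Q, h1, h2, h3, h4⟩ := thmB N hq hnn
      exact Or.inr (Or.inl (fromQ Q h1 h2 h3 h4))

end Cfsg.Agent.Lib.H97XH
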