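/-
HHFree: an element `y` of prime order `s` normalizing a group `T` of operators with scalar commutators,
acting without fixed points on `T` modulo scalars, and with no eigenvalue `1`: then `|T : scalars| = (s - 1) ^ 2`.
-/
import Mathlib
import Cfsg.Agent.Lib.BGHH
import Cfsg.Agent.S3736

set_option autoImplicit false
set_option linter.style.haveILetI false
set_option linter.unusedSectionVars false
set_option linter.unusedVariables false

namespace Cfsg.Agent.Lib.HHFree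

open Module Cfsg.Agent.Lib.BGWeight Cfsg.Agent.Lib.BGSymp Cfsg.Agent.Lib.BGHH

section Core

variable {K : Type*} [Field K] {U : Type*} [AddCommGroup U] [Module K U]

/-- The subgroup of scalar operators. -/
def scalarSub (T : Subgroup (Module.End K U)ˣ) : Subgroup ↥T where
  carrier := {t | IsScal (t : (Module.End K U)ˣ)}
  one_mem' := IsScal.one
  mul_mem' := fun ha hb => IsScal.mul ha hb
  inv_mem' := fun ha => IsScal.inv ha

theorem mem_scalarSub {T : Subgroup (Module.End K U)ˣ} {t : ↥T} :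
    t ∈ scalarSub T ↔ IsScal (t : (Module.End K U)ˣ) := Iff.rfl

/-- The package with the exact value of `N ^ 2`. -/
theorem symp_package' [IsAlgClosed K] [FiniteDimensional K U] [Nontrivial U]
    (T : Subgroup (Module.End K U)ˣ) [Finite T] (hT : (Nat.card T : K) ≠ 0)
    (hcomm : ∀ a ∈ T, ∀ b ∈ T, IsScal (a * b * a⁻¹ * b⁻¹))
    (hcen : ∀ t ∈ T, (∀ b ∈ T, t * b = b * t) → IsScal t) :
    ∃ N : ℕ, N ^ 2 = (scalarSub T).index ∧ finrank K U ^ 2 = N ^ 2 * finrank K (commutant T) ∧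
      ((∃ t ∈ T, ¬ IsScal t) → 1 < N) ∧
      ∀ (g : (Module.End K U)ˣ) (hg : ∀ t ∈ T, g * t * g⁻¹ ∈ T)
        (hg' : ∀ t ∈ T, g⁻¹ * t * g⁻¹⁻¹ ∈ T) (d : ℕ)
        (hd : ∀ t ∈ T, ¬ IsScal t → ∀ k : ℕ, 0 < k → IsScal (g ^ k * t * (g ^ k)⁻¹ * t⁻¹) → d ∣ k),
        ∃ r : ℕ, finrank K (fixAd g) ≤ finrank K (commutant T) * r ∧ d * (r - 1) + 1 ≤ N ^ 2 ∧
          (0 < d → g ^ d = 1 → d * (r - 1) + 1 = N ^ 2) := by
  classical
  let Sc : Subgroup ↥T := scalarSub T
  have hSc : ∀ t : ↥T, t ∈ Sc ↔ IsScal (t : (Module.End K U)ˣ) := fun t => Iff.rfl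
  haveI hSn : Sc.Normal := by
    constructor
    intro n hn g
    have h1 : g * n * g⁻¹ = n := by
      apply Subtype.ext
      have h2 : (n : (Module.End K U)ˣ) * g = g * n := IsScal.comm hn _
      simp only [Subgroup.coe_mul, Subgroup.coe_inv]
      rw [← h2]
      group
    rw [h1]
    exact hn
  letI : CommGroup (↥T ⧸ Sc) :=
    { (QuotientGroup.Quotient.group Sc) with
      mul_comm := by
        intro a b
        induction a using QuotientGroup.induction_on with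
        | H a =>
        induction b using QuotientGroup.induction_on with
        | H b =>
        rw [← QuotientGroup.mk_mul, ← QuotientGroup.mk_mul, QuotientGroup.eq]
        rw [hSc]
        have := hcomm _ (inv_mem b.2) _ (inv_mem a.2)
        simpa [mul_assoc] using this }
  let D : SympData T (↥T ⧸ Sc) :=
    { q := QuotientGroup.mk' Sc
      q_surj := QuotientGroup.mk'_surjective Sc
      q_ker := by
        intro t
        rw [QuotientGroup.mk'_apply, QuotientGroup.eq_one_iff, hSc]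
      Ad := QuotientGroup.lift Sc (adHom.comp T.subtype) (by
        intro t ht
        ext X u
        have h1 : IsScal (t : (Module.End K U)ˣ) := ht
        have h2 : adHom (t : (Module.End K U)ˣ) X = X := by
          obtain ⟨c, hc⟩ := h1
          have h3 : ((t : (Module.End K U)ˣ) : Module.End K U) * X = X * (t : (Module.End K U)ˣ) := by
            rw [hc]
            simp
          rw [adHom_apply, h3, mul_assoc, Units.mul_inv, mul_one]
        simp [h2])
      Ad_q := by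
        intro t
        rfl }
  have hcen' : ∀ t : ↥T, (∀ b : ↥T, (t : (Module.End K U)ˣ) * b = b * t) → IsScal (t : (Module.End K U)ˣ) := by
    intro t ht
    exact hcen t t.2 (fun b hb => ht ⟨b, hb⟩)
  have hdvd : Nat.card (↥T ⧸ Sc) ∣ Nat.card T := by
    rw [← Subgroup.index_eq_card]
    exact Subgroup.index_dvd_card Sc
  have hW : (Nat.card (↥T ⧸ Sc) : K) ≠ 0 := by
    obtain ⟨c, hc⟩ := hdvd
    intro h
    apply hT
    rw [hc]
    simp [h]
  obtain ⟨N, hN⟩ := D.exists_card_sq hW hcen'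
  refine ⟨N, ?_, ?_, ?_, ?_⟩
  · rw [← hN]
    exact (Subgroup.index_eq_card Sc).symm
  · rw [← hN]
    exact D.finrank_sq_eq hW hcen'
  · rintro ⟨t, ht, hns⟩
    by_contra hle
    have h1 : Nat.card (↥T ⧸ Sc) ≤ 1 := by
      rw [hN]
      have : N ≤ 1 := not_lt.mp hle
      calc N ^ 2 ≤ 1 ^ 2 := Nat.pow_le_pow_left this 2
        _ = 1 := by norm_num
    haveI : Subsingleton (↥T ⧸ Sc) := (Finite.card_le_one_iff_subsingleton).mp h1
    apply hns
    have h2 : ((⟨t, ht⟩ : ↥T) : ↥T ⧸ Sc) = 1 := Subsingleton.elim _ _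
    exact (QuotientGroup.eq_one_iff _).mp h2
  · intro g hg hg' d hd
    obtain ⟨r, h1, h2, h3⟩ := D.fix_bound hW hcen' g hg hg' d (fun t hns k hk h => hd t t.2 hns k hk h)
    refine ⟨r, h1, ?_, ?_⟩
    · rwa [hN] at h2
    · rwa [hN] at h3

/-- **Core**: no eigenvalue `1` forces `|T : scalars| = (s - 1) ^ 2`. -/
theorem core [IsAlgClosed K] [FiniteDimensional K U]
    (T : Subgroup (Module.End K U)ˣ) [Finite T] (hT : (Nat.card T : K) ≠ 0)
    (hcomm : ∀ a ∈ T, ∀ b ∈ T, IsScal (a * b * a⁻¹ * b⁻¹))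
    (hcen : ∀ t ∈ T, (∀ b ∈ T, t * b = b * t) → IsScal t)
    (hns : ∃ t ∈ T, ¬ IsScal t)
    (y : (Module.End K U)ˣ) (hyT : ∀ t ∈ T, y * t * y⁻¹ ∈ T) {s : ℕ} (hs : s.Prime) (hsK : (s : K) ≠ 0)
    (hys : y ^ s = 1) (hfp : ∀ t ∈ T, ¬ IsScal t → ¬ IsScal (y * t * y⁻¹ * t⁻¹))
    (hker : LinearMap.ker ((y : Module.End K U) - 1) = ⊥) :
    ∃ N : ℕ, N ^ 2 = (scalarSub T).index ∧ 1 < N ∧ N + 1 = s := by
  haveI : Nontrivial U := by
    obtain ⟨t₀, _, hns₀⟩ := hns
    exact nontrivial_of_ns hns₀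
  obtain ⟨N, hN1, hN2, hN3, hN4⟩ := symp_package' T hT hcomm hcen
  have hN1' : 1 < N := hN3 hns
  have hd : ∀ t ∈ T, ¬ IsScal t → ∀ k : ℕ, 0 < k → IsScal (y ^ k * t * (y ^ k)⁻¹ * t⁻¹) → s ∣ k := by
    intro t ht hnst k hk h
    have := not_coprime_of_scal y t s hs.pos hys (hfp t ht hnst) k h
    by_contra hdvd
    exact this ((Nat.Prime.coprime_iff_not_dvd hs).mpr hdvd).symm
  obtain ⟨r, hF, -, hr⟩ := hN4 y hyT (inv_conj_mem y hyT s hs.pos hys) s hd
  have hr' := hr hs.pos hys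
  have hin := eigen_ineq y s hs hsK hys
  rw [hker, finrank_bot] at hin
  have hDpos : 0 < finrank K U := Module.finrank_pos
  have hcpos : 0 < finrank K (commutant T) := by
    rcases Nat.eq_zero_or_pos (finrank K (commutant T)) with h | h
    · rw [h, mul_zero] at hN2
      have : finrank K U = 0 := by simpa using hN2
      omega
    · exact h
  set c := finrank K (commutant T) with hc
  set D := finrank K U with hD
  have hrpos : 1 ≤ r := by
    by_contra h
    have h0 : r = 0 := by omega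
    subst h0
    simp at hr'
    nlinarith
  obtain ⟨r', rfl⟩ : ∃ r', r = r' + 1 := ⟨r - 1, by omega⟩
  simp only [Nat.add_sub_cancel] at hr'
  have hsZ : (1 : ℤ) ≤ s := by exact_mod_cast hs.one_le
  have h1 : (D : ℤ) ^ 2 ≤ ((s : ℤ) - 1) * ((c : ℤ) * ((r' : ℤ) + 1)) := by
    have h2 : (finrank K (fixAd y) : ℤ) ≤ (c : ℤ) * ((r' : ℤ) + 1) := by exact_mod_cast hF
    have h3 : ((D : ℤ) - 0) ^ 2 ≤ ((s : ℤ) - 1) * ((finrank K (fixAd y) : ℤ) - 0 ^ 2) := by
      simpa using hin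
    have h4 : ((s : ℤ) - 1) * (finrank K (fixAd y) : ℤ) ≤ ((s : ℤ) - 1) * ((c : ℤ) * ((r' : ℤ) + 1)) :=
      mul_le_mul_of_nonneg_left h2 (by linarith)
    simp only [sub_zero, ne_eq, OfNat.ofNat_ne_zero, not_false_eq_true, zero_pow] at h3
    linarith
  have h2 : (D : ℤ) ^ 2 = (N : ℤ) ^ 2 * c := by exact_mod_cast hN2
  have hcZ : (0 : ℤ) < c := by exact_mod_cast hcpos
  have h3 : (N : ℤ) ^ 2 ≤ ((s : ℤ) - 1) * ((r' : ℤ) + 1) := by
    rw [h2] at h1
    have h4 : (N : ℤ) ^ 2 * c ≤ (((s : ℤ) - 1) * ((r' : ℤ) + 1)) * c := by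
      calc (N : ℤ) ^ 2 * c ≤ ((s : ℤ) - 1) * ((c : ℤ) * ((r' : ℤ) + 1)) := h1
        _ = (((s : ℤ) - 1) * ((r' : ℤ) + 1)) * c := by ring
    exact le_of_mul_le_mul_right h4 hcZ
  have h4 : (s : ℤ) * r' + 1 = (N : ℤ) ^ 2 := by exact_mod_cast hr'
  have h5 : (N : ℤ) ^ 2 ≤ ((s : ℤ) - 1) ^ 2 := by
    have hspos : (0 : ℤ) < s := by linarith
    have h6 : (s : ℤ) * (N : ℤ) ^ 2 ≤ (s : ℤ) * ((s : ℤ) - 1) ^ 2 := by
      have h7 := mul_le_mul_of_nonneg_left h3 hspos.le
      have e : (s : ℤ) * (((s : ℤ) - 1) * ((r' : ℤ) + 1)) = ((s : ℤ) - 1) * ((s : ℤ) * r' + 1) + ((s : ℤ) - 1) ^ 2 := by ring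
      rw [e, h4] at h7
      nlinarith
    exact le_of_mul_le_mul_left h6 hspos
  have h6 : N ≤ s - 1 := by
    have h7 : (N : ℤ) ≤ (s : ℤ) - 1 := by
      have h8 := abs_le_of_sq_le_sq' h5 (by linarith)
      exact h8.2
    have hs1 := hs.one_le
    omega
  have h7 : s ∣ (N - 1) * (N + 1) := by
    obtain ⟨m, rfl⟩ : ∃ m, N = m + 1 := ⟨N - 1, by omega⟩
    simp only [Nat.add_sub_cancel]
    refine ⟨r', ?_⟩
    have : s * r' + 1 = (m + 1) ^ 2 := hr'
    nlinarith
  have hsN : s ∣ N + 1 := by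
    rcases (Nat.Prime.dvd_mul hs).1 h7 with h8 | h8
    · exfalso
      have := Nat.le_of_dvd (by omega) h8
      omega
    · exact h8
  have h8 := Nat.le_of_dvd (by omega) hsN
  exact ⟨N, hN1, hN1', by omega⟩

end Core

section Layer2

open scoped commutatorElement

variable {K : Type*} [Field K] [IsAlgClosed K] {U : Type*} [AddCommGroup U] [Module K U]
  [FiniteDimensional K U] {Γ : Type*} [Group Γ] [Finite Γ]

theorem conj_pow_eq {G : Type*} [Group G] (x g c : G) (hcx : x * c = c * x) (h : x * g * x⁻¹ = c * g) (k : ℕ) :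
    x ^ k * g * (x ^ k)⁻¹ = c ^ k * g := by
  induction k with
  | zero => simp
  | succ k ih =>
    have e : x ^ (k + 1) * g * (x ^ (k + 1))⁻¹ = x * (x ^ k * g * (x ^ k)⁻¹) * x⁻¹ := by
      rw [pow_succ']
      group
    rw [e, ih]
    have hcx' : x * c ^ k = c ^ k * x := (Commute.pow_right hcx k)
    calc x * (c ^ k * g) * x⁻¹ = (x * c ^ k) * g * x⁻¹ := by group
      _ = c ^ k * (x * g * x⁻¹) := by rw [hcx']; group
      _ = c ^ k * (c * g) := by rw [h]
      _ = c ^ (k + 1) * g := by rw [pow_succ]; group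

/-- **Layer 2**. A `q`-group `Q` with central subgroup `Φ ≥ Q'` on which `x` acts trivially, with `C_Q(x) ≤ Φ`,
non-degenerate commutator maps into `Φ / L`; no eigenvalue `1` for `x` forces `|Q : Φ| = (s - 1) ^ 2`. -/
theorem layer2 (ρ : Γ →* (Module.End K U)ˣ) (hρ : Function.Injective ρ)
    {q s : ℕ} (hq : q.Prime) (hs : s.Prime) (hqs : q ≠ s) (hqK : (q : K) ≠ 0) (hsK : (s : K) ≠ 0)
    (x : Γ) (hxs : x ^ s = 1) (Q Φ : Subgroup Γ) (hQ : IsPGroup q Q) (hΦQ : Φ ≤ Q)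
    (hxQ : ∀ g ∈ Q, x * g * x⁻¹ ∈ Q)
    (hΦx : ∀ f ∈ Φ, x * f = f * x)
    (hΦc : ∀ f ∈ Φ, ∀ g ∈ Q, f * g = g * f)
    (hcomm : ∀ g ∈ Q, ∀ h ∈ Q, ⁅g, h⁆ ∈ Φ)
    (hfix : ∀ g ∈ Q, x * g = g * x → g ∈ Φ)
    (hΦne : Φ ≠ ⊥) (hQΦ : ∃ g ∈ Q, g ∉ Φ)
    (hR : ∀ L : Subgroup Γ, L ≤ Φ → L ≠ Φ → ∀ g ∈ Q, (∀ h ∈ Q, ⁅g, h⁆ ∈ L) → g ∈ Φ)
    (hker : LinearMap.ker ((ρ x : Module.End K U) - 1) = ⊥) :
    ∃ N : ℕ, N ^ 2 = Φ.relIndex Q ∧ 1 < N ∧ N + 1 = s := by
  classical
  haveI : Fact q.Prime := ⟨hq⟩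
  letI cΦ : CommGroup Φ :=
    { (inferInstance : Group Φ) with
      mul_comm := fun a b => Subtype.ext (hΦc a a.2 b (hΦQ b.2)) }
  let ρΦ : Φ →* Module.End K U := (Units.coeHom _).comp (ρ.comp Φ.subtype)
  have hρΦ : ∀ f : Φ, ρΦ f = ((ρ (f : Γ) : (Module.End K U)ˣ) : Module.End K U) := fun f => rfl
  have hΦp : IsPGroup q Φ := hQ.to_le hΦQ
  have hpowK : ∀ m : ℕ, ((q ^ m : ℕ) : K) ≠ 0 := by
    intro m
    push_cast
    exact pow_ne_zero _ hqK
  have hW : (Nat.card Φ : K) ≠ 0 := by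
    obtain ⟨m, hm⟩ := IsPGroup.iff_card.mp hΦp
    rw [hm]
    exact hpowK m
  obtain ⟨w₀, hw₀⟩ := Subgroup.ne_bot_iff_exists_ne_one.1 hΦne
  have hw₀ρ : ρΦ w₀ ≠ 1 := by
    intro h
    apply hw₀
    apply Subtype.ext
    apply hρ
    apply Units.ext
    rw [Subgroup.coe_one, map_one]
    exact h
  obtain ⟨ψ, hψne, hψw⟩ := exists_wsp_apply_ne hW ρΦ hw₀ρ
  set U₀ := wsp ρΦ ψ with hU₀
  have hmemU₀ : ∀ v, v ∈ U₀ ↔ ∀ f : Φ, ((ρ (f : Γ) : (Module.End K U)ˣ) : Module.End K U) v = ((ψ f : Kˣ) : K) • v :=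
    fun v => Iff.rfl
  obtain ⟨v₀, hv₀, hv₀ne⟩ := Submodule.exists_mem_ne_zero_of_ne_bot hψne
  -- the centralizer of `Φ` acts on the weight space
  let C : Subgroup Γ := Subgroup.centralizer (Φ : Set Γ)
  have hmemC : ∀ g, g ∈ C ↔ ∀ f ∈ Φ, f * g = g * f := fun g => Subgroup.mem_centralizer_iff
  have hQC : Q ≤ C := fun g hg => (hmemC g).2 (fun f hf => hΦc f hf g hg)
  have hxC : x ∈ C := (hmemC x).2 (fun f hf => (hΦx f hf).symm)
  have hΦC : Φ ≤ C := hΦQ.trans hQC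
  have hinv : ∀ g : C, ∀ v ∈ U₀, ((ρ (g : Γ) : (Module.End K U)ˣ) : Module.End K U) v ∈ U₀ := by
    intro g v hv
    rw [hmemU₀] at hv ⊢
    intro f
    have h1 : ρ (f : Γ) * ρ (g : Γ) = ρ (g : Γ) * ρ (f : Γ) := by
      rw [← map_mul, ← map_mul, (hmemC g).1 g.2 f f.2]
    have h2 := LinearMap.congr_fun (congrArg (fun u : (Module.End K U)ˣ => (u : Module.End K U)) h1) v
    simp only [Units.val_mul, Module.End.mul_apply] at h2
    rw [h2, hv f, map_smul]
  let ρ₁ : C →* Module.End K U₀ :=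
    { toFun := fun g => ((ρ (g : Γ) : (Module.End K U)ˣ) : Module.End K U).restrict (hinv g)
      map_one' := by
        ext v
        simp
      map_mul' := by
        intro g h
        ext v
        simp }
  have hρ₁ : ∀ (g : C) (v : U₀), ((ρ₁ g v : U₀) : U) = ((ρ (g : Γ) : (Module.End K U)ˣ) : Module.End K U) v :=
    fun g v => rfl
  let ρ₂ : C →* (Module.End K U₀)ˣ := ρ₁.toHomUnits
  have hρ₂ : ∀ (g : C) (v : U₀), (((ρ₂ g : (Module.End K U₀)ˣ) : Module.End K U₀) v : U) =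
      ((ρ (g : Γ) : (Module.End K U)ˣ) : Module.End K U) v := fun g v => rfl
  have hv₀' : (⟨v₀, hv₀⟩ : U₀) ≠ 0 := fun h => hv₀ne (congrArg Subtype.val h)
  -- elements of `Φ` act as scalars
  have hscalΦ : ∀ f : C, (f : Γ) ∈ Φ → IsScal (ρ₂ f) := by
    intro f hf
    refine ⟨((ψ ⟨f, hf⟩ : Kˣ) : K), ?_⟩
    ext v
    rw [hρ₂]
    exact v.2 ⟨f, hf⟩
  -- an element of `Q` whose image commutes with the image of `Q` lies in `Φ`
  let L : Subgroup Γ := ψ.ker.map Φ.subtype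
  have hLΦ : L ≤ Φ := by
    rintro _ ⟨f, -, rfl⟩
    exact f.2
  have hLne : L ≠ Φ := by
    intro h
    have : (w₀ : Γ) ∈ L := by
      rw [h]
      exact w₀.2
    obtain ⟨f, hf, e⟩ := this
    have : f = w₀ := Subtype.ext e
    rw [this] at hf
    exact hψw hf
  have hcen₀ : ∀ g : C, (g : Γ) ∈ Q → (∀ h : C, (h : Γ) ∈ Q → ρ₂ g * ρ₂ h = ρ₂ h * ρ₂ g) → (g : Γ) ∈ Φ := by
    intro g hg hc
    apply hR L hLΦ hLne g hg
    intro h hh
    have hcΦ : ⁅(g : Γ), h⁆ ∈ Φ := hcomm g hg h hh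
    have h1 : ρ₂ (g * ⟨h, hQC hh⟩ * g⁻¹ * (⟨h, hQC hh⟩ : C)⁻¹) = 1 := by
      rw [map_mul, map_mul, map_mul, map_inv, map_inv, hc ⟨h, hQC hh⟩ hh]
      group
    have h2 : (((g * ⟨h, hQC hh⟩ * g⁻¹ * (⟨h, hQC hh⟩ : C)⁻¹ : C)) : Γ) = ⁅(g : Γ), h⁆ := rfl
    have h3 := hρ₂ (g * ⟨h, hQC hh⟩ * g⁻¹ * (⟨h, hQC hh⟩ : C)⁻¹) ⟨v₀, hv₀⟩
    rw [h1, h2] at h3
    have h4 : v₀ = ((ψ ⟨_, hcΦ⟩ : Kˣ) : K) • v₀ := by
      have h5 : ((ρ ⁅(g : Γ), h⁆ : (Module.End K U)ˣ) : Module.End K U) v₀ = ((ψ ⟨_, hcΦ⟩ : Kˣ) : K) • v₀ :=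
        hv₀ ⟨_, hcΦ⟩
      rw [← h5]
      exact h3
    have h5 : ψ ⟨_, hcΦ⟩ = 1 := by
      apply Units.ext
      have h6 : (((ψ ⟨_, hcΦ⟩ : Kˣ) : K) - 1) • v₀ = 0 := by
        rw [sub_smul, one_smul, ← h4, sub_self]
      rcases smul_eq_zero.1 h6 with h7 | h7
      · rw [Units.val_one]
        exact sub_eq_zero.1 h7
      · exact absurd h7 hv₀ne
    exact ⟨⟨_, hcΦ⟩, h5, rfl⟩
  have hscal₀ : ∀ g : C, (g : Γ) ∈ Q → IsScal (ρ₂ g) → (g : Γ) ∈ Φ := by
    intro g hg hsc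
    exact hcen₀ g hg (fun h _ => hsc.comm _)
  -- the group of operators
  let T : Subgroup (Module.End K U₀)ˣ := (Q.subgroupOf C).map ρ₂
  have hmemT : ∀ t, t ∈ T ↔ ∃ g : C, (g : Γ) ∈ Q ∧ ρ₂ g = t := by
    intro t
    constructor
    · rintro ⟨g, hg, rfl⟩
      exact ⟨g, hg, rfl⟩
    · rintro ⟨g, hg, rfl⟩
      exact ⟨g, hg, rfl⟩
  let π : Q →* T :=
    { toFun := fun g => ⟨ρ₂ ⟨g, hQC g.2⟩, (hmemT _).2 ⟨_, g.2, rfl⟩⟩
      map_one' := by
        apply Subtype.ext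
        exact map_one ρ₂
      map_mul' := by
        intro g h
        apply Subtype.ext
        exact map_mul ρ₂ ⟨g, hQC g.2⟩ ⟨h, hQC h.2⟩ }
  have hπ : ∀ g : Q, ((π g : T) : (Module.End K U₀)ˣ) = ρ₂ ⟨g, hQC g.2⟩ := fun g => rfl
  have hπsurj : Function.Surjective π := by
    rintro ⟨t, ht⟩
    obtain ⟨g, hg, rfl⟩ := (hmemT t).1 ht
    exact ⟨⟨g, hg⟩, rfl⟩
  haveI : Finite T := Finite.of_surjective π hπsurj
  have hT : (Nat.card T : K) ≠ 0 := by
    have hTp : IsPGroup q T := IsPGroup.of_surjective hQ π hπsurj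
    obtain ⟨m, hm⟩ := IsPGroup.iff_card.mp hTp
    rw [hm]
    exact hpowK m
  let y : (Module.End K U₀)ˣ := ρ₂ ⟨x, hxC⟩
  have hys : y ^ s = 1 := by
    rw [← map_pow]
    have : (⟨x, hxC⟩ : C) ^ s = 1 := Subtype.ext hxs
    rw [this, map_one]
  have hcenΦ : ∀ g : C, (g : Γ) ∈ Q → (IsScal (ρ₂ g) ↔ (g : Γ) ∈ Φ) := by
    intro g hg
    exact ⟨hscal₀ g hg, hscalΦ g⟩
  have hindex : (scalarSub T).index = Φ.relIndex Q := by
    have h1 : (scalarSub T).comap π = Φ.subgroupOf Q := by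
      ext g
      rw [Subgroup.mem_comap, Subgroup.mem_subgroupOf, mem_scalarSub, hπ]
      exact hcenΦ ⟨g, hQC g.2⟩ g.2
    rw [← Subgroup.index_comap_of_surjective _ hπsurj, h1]
    rfl
  obtain ⟨g₀, hg₀, hg₀Φ⟩ := hQΦ
  have hxg : ∀ g : C, (g : Γ) ∈ Q → y * ρ₂ g * y⁻¹ = ρ₂ ⟨x * g * x⁻¹, (C.mul_mem (C.mul_mem hxC g.2) (C.inv_mem hxC))⟩ := by
    intro g hg
    have : (⟨x * g * x⁻¹, (C.mul_mem (C.mul_mem hxC g.2) (C.inv_mem hxC))⟩ : C) = ⟨x, hxC⟩ * g * (⟨x, hxC⟩ : C)⁻¹ := rfl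
    rw [this, map_mul, map_mul, map_inv]
  obtain ⟨N, hN1, hN2, hN3⟩ := core T hT
    (by
      intro a ha b hb
      obtain ⟨g, hg, rfl⟩ := (hmemT a).1 ha
      obtain ⟨h, hh, rfl⟩ := (hmemT b).1 hb
      have e : ρ₂ g * ρ₂ h * (ρ₂ g)⁻¹ * (ρ₂ h)⁻¹ = ρ₂ (g * h * g⁻¹ * h⁻¹) := by
        rw [map_mul, map_mul, map_mul, map_inv, map_inv]
      rw [e]
      exact hscalΦ _ (hcomm g hg h hh))
    (by
      intro t ht hc
      obtain ⟨g, hg, rfl⟩ := (hmemT t).1 ht
      apply hscalΦ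
      apply hcen₀ g hg
      intro h hh
      exact hc _ ((hmemT _).2 ⟨h, hh, rfl⟩))
    ⟨ρ₂ ⟨g₀, hQC hg₀⟩, (hmemT _).2 ⟨_, hg₀, rfl⟩, fun h => hg₀Φ (hscal₀ ⟨g₀, hQC hg₀⟩ hg₀ h)⟩
    y
    (by
      intro t ht
      obtain ⟨g, hg, rfl⟩ := (hmemT t).1 ht
      rw [hxg g hg]
      exact (hmemT _).2 ⟨_, hxQ g hg, rfl⟩)
    hs hsK hys
    (by
      intro t ht hnt hsc
      obtain ⟨g, hg, rfl⟩ := (hmemT t).1 ht
      apply hnt
      rw [hxg g hg] at hsc
      have e : ρ₂ ⟨x * g * x⁻¹, (C.mul_mem (C.mul_mem hxC g.2) (C.inv_mem hxC))⟩ * (ρ₂ g)⁻¹ =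
          ρ₂ (⟨x * g * x⁻¹, (C.mul_mem (C.mul_mem hxC g.2) (C.inv_mem hxC))⟩ * g⁻¹) := by
        rw [map_mul, map_inv]
      rw [e] at hsc
      have hcQ : x * g * x⁻¹ * (g : Γ)⁻¹ ∈ Q := Q.mul_mem (hxQ g hg) (Q.inv_mem hg)
      have hcΦ : x * g * x⁻¹ * (g : Γ)⁻¹ ∈ Φ := hscal₀ _ hcQ hsc
      set c : Γ := x * g * x⁻¹ * (g : Γ)⁻¹ with hc
      have h1 : x * g * x⁻¹ = c * g := by
        rw [hc]
        group
      have h2 := conj_pow_eq x g c (hΦx c hcΦ) h1 s
      rw [hxs] at h2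
      have h3 : c ^ s = 1 := by
        have h4 : (g : Γ) = c ^ s * g := by
          rw [← h2]
          group
        exact (mul_eq_right.1 h4.symm)
      obtain ⟨m, hm⟩ := IsPGroup.iff_orderOf.1 hQ ⟨c, hcQ⟩
      have h5 : orderOf c = q ^ m := by
        rw [← Subgroup.orderOf_mk c hcQ, hm]
      have h6 : orderOf c ∣ s := orderOf_dvd_of_pow_eq_one h3
      have h7 : c = 1 := by
        rw [h5] at h6
        rcases m with _ | m
        · rw [pow_zero] at h5
          exact orderOf_eq_one_iff.1 h5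
        · exfalso
          have h8 : q ∣ s := (dvd_pow_self q (Nat.succ_ne_zero m)).trans h6
          exact hqs ((Nat.prime_dvd_prime_iff_eq hq hs).1 h8)
      have h8 : x * g = g * x := by
        have h9 : x * g * x⁻¹ = g := by
          rw [h1, h7, one_mul]
        calc x * g = x * g * x⁻¹ * x := by group
          _ = g * x := by rw [h9]
      exact hscalΦ g (hfix g hg h8))
    (by
      rw [eq_bot_iff]
      intro u hu
      rw [LinearMap.mem_ker] at hu
      have h1 : (((y : Module.End K U₀) - 1) u : U₀) = 0 := hu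
      have h2 : ((ρ x : Module.End K U) - 1) (u : U) = 0 := by
        have h3 := congrArg Subtype.val h1
        have h4 : (((y : Module.End K U₀) u : U₀) : U) - u = 0 := h3
        rw [LinearMap.sub_apply]
        exact h4
      have h3 : (u : U) ∈ LinearMap.ker ((ρ x : Module.End K U) - 1) := h2
      rw [hker, Submodule.mem_bot] at h3
      exact (Submodule.mem_bot _).2 (Subtype.ext h3))
  exact ⟨N, by rw [hN1, hindex], hN2, hN3⟩

end Layer2
section Sum

variable {K : Type*} [Field K] {U : Type*} [AddCommGroup U] [Module K U]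
  {W : Type*} [CommGroup W] [Fintype W]

omit [Fintype W] in
/-- An endomorphism twisted by an automorphism moves the weight spaces. -/
theorem pow_mem_wsp (ρ : W →* Module.End K U) (y : (Module.End K U)ˣ) (σ : MulAut W)
    (hσ : ∀ w, (y : Module.End K U) * ρ w = ρ (σ w) * y) (i : ℕ) (ψ : W →* Kˣ) {v : U}
    (hv : v ∈ wsp ρ ψ) :
    ((y ^ i : (Module.End K U)ˣ) : Module.End K U) v ∈ wsp ρ (ψ.comp ((σ ^ i)⁻¹ : MulAut W).toMonoidHom) := by
  have hσi : ∀ (i : ℕ) (w : W), ((y ^ i : (Module.End K U)ˣ) : Module.End K U) * ρ w =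
      ρ ((σ ^ i) w) * ((y ^ i : (Module.End K U)ˣ) : Module.End K U) := by
    intro i
    induction i with
    | zero => intro w; simp
    | succ i ih =>
      intro w
      rw [pow_succ', Units.val_mul, mul_assoc, ih, ← mul_assoc, hσ, mul_assoc, pow_succ', MulAut.mul_apply]
  rw [mem_wsp]
  intro w
  have h1 := LinearMap.congr_fun (hσi i (((σ ^ i)⁻¹ : MulAut W) w)) v
  simp only [Module.End.mul_apply, MulAut.apply_inv_self] at h1
  rw [← h1, hv, map_smul]
  rfl

/-- The key sum: the projection onto a non-trivial weight space recovers the vector. -/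
theorem eproj_sum (ρ : W →* Module.End K U) (hW : (Fintype.card W : K) ≠ 0)
    (y : (Module.End K U)ˣ) (σ : MulAut W)
    (hσ : ∀ w, (y : Module.End K U) * ρ w = ρ (σ w) * y) {s : ℕ} (hs : 0 < s)
    (hfp : ∀ i, 0 < i → i < s → ∀ w, (σ ^ i) w = w → w = 1)
    (ψ : W →* Kˣ) (hψ : ψ ≠ 1) {v : U} (hv : v ∈ wsp ρ ψ) :
    eproj ρ ψ (∑ i ∈ Finset.range s, ((y ^ i : (Module.End K U)ˣ) : Module.End K U) v) = v := by
  classical
  obtain ⟨t, rfl⟩ : ∃ t, s = t + 1 := ⟨s - 1, by omega⟩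
  rw [map_sum, Finset.sum_range_succ']
  have h0 : eproj ρ ψ (((y ^ 0 : (Module.End K U)ˣ) : Module.End K U) v) = v := by
    have := eproj_of_mem hW ρ ψ ψ hv
    rw [if_pos rfl] at this
    simpa using this
  rw [h0, Finset.sum_eq_zero, zero_add]
  intro i hi
  have hi' : i + 1 < t + 1 := by
    have := Finset.mem_range.1 hi
    omega
  have h1 := eproj_of_mem hW ρ ψ _ (pow_mem_wsp ρ y σ hσ (i + 1) ψ hv)
  rw [h1, if_neg]
  intro h2
  apply hψ
  -- `ψ` is fixed by an automorphism without fixed points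
  set β : MulAut W := σ ^ (i + 1) with hβ
  have hβψ : ∀ w, ψ (β w) = ψ w := by
    intro w
    have h3 := congrArg (fun χ : W →* Kˣ => χ (β w)) h2
    simp only [MonoidHom.comp_apply, MulEquiv.coe_toMonoidHom, MulAut.inv_apply_self] at h3
    exact h3
  let f : W →* W :=
    { toFun := fun w => β w * w⁻¹
      map_one' := by simp
      map_mul' := by
        intro a b
        rw [map_mul, mul_inv]
        exact mul_mul_mul_comm _ _ _ _ }
  have hfinj : Function.Injective f := by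
    rw [injective_iff_map_eq_one]
    intro w hw
    apply hfp (i + 1) (by omega) hi' w
    exact mul_inv_eq_one.1 hw
  have hfsurj : Function.Surjective f := Finite.surjective_of_injective hfinj
  ext w
  obtain ⟨a, rfl⟩ := hfsurj w
  show ((ψ (β a * a⁻¹) : Kˣ) : K) = _
  rw [map_mul, map_inv, hβψ, mul_inv_cancel]
  rfl

/-- The sum over the powers of `y` is fixed by `y`. -/
theorem sum_fixed (y : (Module.End K U)ˣ) {s : ℕ} (hys : y ^ s = 1) (v : U) :
    (y : Module.End K U) (∑ i ∈ Finset.range s, ((y ^ i : (Module.End K U)ˣ) : Module.End K U) v) =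
      ∑ i ∈ Finset.range s, ((y ^ i : (Module.End K U)ˣ) : Module.End K U) v := by
  rw [map_sum]
  have h1 : ∀ i, (y : Module.End K U) (((y ^ i : (Module.End K U)ˣ) : Module.End K U) v) =
      ((y ^ (i + 1) : (Module.End K U)ˣ) : Module.End K U) v := by
    intro i
    rw [pow_succ', Units.val_mul, Module.End.mul_apply]
  simp_rw [h1]
  have h2 := Finset.sum_range_succ (fun i => ((y ^ i : (Module.End K U)ˣ) : Module.End K U) v) s
  have h3 := Finset.sum_range_succ' (fun i => ((y ^ i : (Module.End K U)ˣ) : Module.End K U) v) s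
  rw [h2, hys] at h3
  simp only [pow_zero] at h3
  exact (add_right_cancel h3).symm

end Sum

section AbelianCase

variable {K : Type*} [Field K] [IsAlgClosed K] {U : Type*} [AddCommGroup U] [Module K U]
  [FiniteDimensional K U] {Γ : Type*} [Group Γ]

/-- A power of an element of prime order generates the same group. -/
theorem commute_of_pow {G : Type*} [Group G] {x a : G} {s i : ℕ} (hs : s.Prime) (hxs : x ^ s = 1) (hi : 0 < i)
    (his : i < s) (h : x ^ i * a = a * x ^ i) : x * a = a * x := by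
  have hcop : Nat.Coprime i s := (Nat.coprime_of_lt_prime hi.ne' his hs).symm
  obtain ⟨m, -, hm⟩ := Nat.exists_mul_mod_eq_one_of_coprime hcop hs.one_lt
  have h1 : x = (x ^ i) ^ m := by
    rw [← pow_mul, pow_eq_pow_mod (i * m) hxs, hm, pow_one]
  have h2 : Commute (x ^ i) a := h
  have h3 : Commute ((x ^ i) ^ m) a := h2.pow_left m
  rw [← h1] at h3
  exact h3

/-- The conjugation automorphism of a subgroup. -/
def conjAut (A : Subgroup Γ) (x : Γ) (hx : ∀ a ∈ A, x * a * x⁻¹ ∈ A) (hx' : ∀ a ∈ A, x⁻¹ * a * x ∈ A) : MulAut A where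
  toFun a := ⟨x * a * x⁻¹, hx a a.2⟩
  invFun a := ⟨x⁻¹ * a * x, hx' a a.2⟩
  left_inv a := by
    apply Subtype.ext
    simp only
    group
  right_inv a := by
    apply Subtype.ext
    simp only
    group
  map_mul' a b := by
    apply Subtype.ext
    simp only [Subgroup.coe_mul]
    group

theorem conjAut_apply (A : Subgroup Γ) (x : Γ) (hx : ∀ a ∈ A, x * a * x⁻¹ ∈ A) (hx' : ∀ a ∈ A, x⁻¹ * a * x ∈ A)
    (a : A) : ((conjAut A x hx hx' a : A) : Γ) = x * a * x⁻¹ := rfl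

theorem conjAut_pow (A : Subgroup Γ) (x : Γ) (hx : ∀ a ∈ A, x * a * x⁻¹ ∈ A) (hx' : ∀ a ∈ A, x⁻¹ * a * x ∈ A)
    (i : ℕ) (a : A) : (((conjAut A x hx hx' ^ i) a : A) : Γ) = x ^ i * a * (x ^ i)⁻¹ := by
  induction i with
  | zero => simp
  | succ i ih =>
    rw [pow_succ', MulAut.mul_apply, conjAut_apply, ih, pow_succ']
    group

theorem conjAut_fp (A : Subgroup Γ) (x : Γ) (hx : ∀ a ∈ A, x * a * x⁻¹ ∈ A) (hx' : ∀ a ∈ A, x⁻¹ * a * x ∈ A)
    {s : ℕ} (hs : s.Prime) (hxs : x ^ s = 1) (hfpf : ∀ a ∈ A, x * a = a * x → a = 1) :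
    ∀ i, 0 < i → i < s → ∀ w, (conjAut A x hx hx' ^ i) w = w → w = 1 := by
  intro i hi his w hw
  apply Subtype.ext
  apply hfpf w w.2
  apply commute_of_pow hs hxs hi his
  have h1 := congrArg Subtype.val hw
  rw [conjAut_pow] at h1
  calc x ^ i * (w : Γ) = (x ^ i * w * (x ^ i)⁻¹) * x ^ i := by group
    _ = w * x ^ i := by rw [h1]

/-- **The Frobenius case.** -/
theorem fix_of_abelian (ρ : Γ →* (Module.End K U)ˣ) (A : Subgroup Γ) [Finite A]
    (hAc : ∀ a ∈ A, ∀ b ∈ A, a * b = b * a) (hcard : (Nat.card A : K) ≠ 0) (x : Γ)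
    (hx : ∀ a ∈ A, x * a * x⁻¹ ∈ A) (hx' : ∀ a ∈ A, x⁻¹ * a * x ∈ A) {s : ℕ} (hs : s.Prime) (hxs : x ^ s = 1)
    (hfpf : ∀ a ∈ A, x * a = a * x → a = 1) (a₀ : Γ) (ha₀ : a₀ ∈ A) (hρa₀ : ρ a₀ ≠ 1) :
    LinearMap.ker ((ρ x : Module.End K U) - 1) ≠ ⊥ := by
  classical
  letI cA : CommGroup A :=
    { (inferInstance : Group A) with mul_comm := fun a b => Subtype.ext (hAc a a.2 b b.2) }
  haveI := Fintype.ofFinite A
  let ρA : A →* Module.End K U := (Units.coeHom _).comp (ρ.comp A.subtype)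
  have hρA : ∀ a : A, ρA a = ((ρ (a : Γ) : (Module.End K U)ˣ) : Module.End K U) := fun a => rfl
  let σ : MulAut A := conjAut A x hx hx'
  have hσ : ∀ w, ((ρ x : (Module.End K U)ˣ) : Module.End K U) * ρA w = ρA (σ w) * (ρ x : (Module.End K U)ˣ) := by
    intro w
    rw [hρA, hρA, ← Units.val_mul, ← Units.val_mul, ← map_mul, ← map_mul, conjAut_apply]
    congr 2
    group
  have hW : (Fintype.card A : K) ≠ 0 := by rwa [← Nat.card_eq_fintype_card]
  have hw : ρA ⟨a₀, ha₀⟩ ≠ 1 := by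
    intro h
    apply hρa₀
    apply Units.ext
    exact h
  obtain ⟨ψ, hψne, hψw⟩ := exists_wsp_apply_ne hcard ρA hw
  obtain ⟨v, hv, hvne⟩ := Submodule.exists_mem_ne_zero_of_ne_bot hψne
  have hψ1 : ψ ≠ 1 := fun h => hψw (by rw [h]; rfl)
  have h1 := eproj_sum ρA hW (ρ x) σ hσ hs.pos (conjAut_fp A x hx hx' hs hxs hfpf) ψ hψ1 hv
  have hys : (ρ x) ^ s = 1 := by rw [← map_pow, hxs, map_one]
  have h2 := sum_fixed (ρ x) hys v
  intro hker
  apply hvne
  have h3 : (∑ i ∈ Finset.range s, (((ρ x) ^ i : (Module.End K U)ˣ) : Module.End K U) v) ∈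
      LinearMap.ker ((ρ x : Module.End K U) - 1) := by
    rw [LinearMap.mem_ker, LinearMap.sub_apply, h2]
    simp
  rw [hker, Submodule.mem_bot] at h3
  rw [h3, map_zero] at h1
  exact h1.symm

end AbelianCase

section Layer4

open scoped commutatorElement

variable {K : Type*} [Field K] [IsAlgClosed K] {U : Type*} [AddCommGroup U] [Module K U]
  [FiniteDimensional K U] {Γ : Type*} [Group Γ] [Finite Γ]

/-- **Layer 4.** -/
theorem layer4 (ρ : Γ →* (Module.End K U)ˣ) (hρ : Function.Injective ρ)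
    {q s : ℕ} (hq : q.Prime) (hs : s.Prime) (hqs : q ≠ s) (hqK : (q : K) ≠ 0) (hsK : (s : K) ≠ 0)
    (x : Γ) (hx : orderOf x = s) (Q : Subgroup Γ) (hQ : IsPGroup q Q)
    (hxQ : x ∈ Subgroup.normalizer (Q : Set Γ)) (hnt : ∃ g ∈ Q, x * g ≠ g * x)
    (hker : LinearMap.ker ((ρ x : Module.End K U) - 1) = ⊥) :
    q = 2 ∧ (∃ f : ℕ, s = 2 ^ f + 1) ∧ ¬ IsMulCommutative Q := by
  classical
  haveI : Fact q.Prime := ⟨hq⟩
  have hxs : x ^ s = 1 := by rw [← hx]; exact pow_orderOf_eq_one x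
  set A : Subgroup Γ := Subgroup.zpowers x with hA
  have hAcard : Nat.card A = s := by rw [hA, Nat.card_zpowers, hx]
  have hAcop : (Nat.card A).Coprime q := by
    rw [hAcard]
    exact (Nat.coprime_primes hs hq).2 hqs.symm
  have hAQ : A ≤ Subgroup.normalizer (Q : Set Γ) := by
    rw [hA, Subgroup.zpowers_le]
    exact hxQ
  have hQne : ⁅Q, A⁆ ≠ ⊥ := by
    intro h
    obtain ⟨g, hg, hgx⟩ := hnt
    apply hgx
    have h1 : ⁅g, x⁆ ∈ ⁅Q, A⁆ := Subgroup.commutator_mem_commutator hg (Subgroup.mem_zpowers x)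
    rw [h, Subgroup.mem_bot, commutatorElement_eq_one_iff_mul_comm] at h1
    exact h1.symm
  -- a minimal non-trivial invariant subgroup
  let S : Set (Subgroup Γ) := {P | P ≤ Q ∧ A ≤ Subgroup.normalizer (P : Set Γ) ∧ ⁅P, A⁆ ≠ ⊥}
  obtain ⟨P, ⟨hPQ, hAP, hPne⟩, hPmin⟩ := wellFounded_lt.has_min S ⟨Q, le_rfl, hAQ, hQne⟩
  have hPp : IsPGroup q P := hQ.to_le hPQ
  have hmin : ∀ U' : Subgroup Γ, U' < P → A ≤ Subgroup.normalizer (U' : Set Γ) → ⁅U', A⁆ = ⊥ := by
    intro U' hU' hAU'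
    by_contra hne
    exact hPmin U' ⟨hU'.le.trans hPQ, hAU', hne⟩ hU'
  obtain ⟨h1, h2, h3, h4, h5⟩ := Cfsg.Agent.S3736.basic A A P hPp hAP le_rfl Subgroup.le_normalizer hAcop hPne hmin
  obtain ⟨-, -, h6, -⟩ := Cfsg.Agent.S3736.result A A P hPp hAP le_rfl Subgroup.le_normalizer hAcop hPne hmin
  set Φ : Subgroup Γ := (frattini ↥P).map P.subtype with hΦ
  have hΦP : Φ ≤ P := Subgroup.map_subtype_le _
  have hxA : x ∈ A := Subgroup.mem_zpowers x
  have hxP : ∀ g ∈ P, x * g * x⁻¹ ∈ P := fun g hg =>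
    (Subgroup.mem_normalizer_iff.1 (hAP hxA) g).1 hg
  have hxP' : ∀ g ∈ P, x⁻¹ * g * x ∈ P := fun g hg => by
    have := (Subgroup.mem_normalizer_iff.1 ((Subgroup.normalizer (P : Set Γ)).inv_mem (hAP hxA)) g).1 hg
    simpa using this
  have hcomPP : ∀ g ∈ P, ∀ h ∈ P, ⁅g, h⁆ ∈ Φ := by
    intro g hg h hh
    rw [← h3]
    exact Subgroup.commutator_mem_commutator hg hh
  have hAΦ : ∀ f ∈ Φ, ∀ y ∈ A, y * f = f * y := by
    intro f hf y hy
    have h7 : ⁅f, y⁆ ∈ ⁅Φ, A⁆ := Subgroup.commutator_mem_commutator hf hy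
    rw [h5, Subgroup.mem_bot, commutatorElement_eq_one_iff_mul_comm] at h7
    exact h7.symm
  have hΦcen : ∀ f ∈ Φ, ∀ g ∈ P, f * g = g * f := by
    intro f hf g hg
    have h7 : ⁅g, f⁆ ∈ ⁅P, Φ⁆ := Subgroup.commutator_mem_commutator hg hf
    rw [h4, Subgroup.mem_bot, commutatorElement_eq_one_iff_mul_comm] at h7
    exact h7.symm
  have hfixP : ∀ g ∈ P, x * g = g * x → g ∈ Φ := by
    intro g hg hgx
    rw [← h2]
    refine ⟨hg, ?_⟩
    show g ∈ Subgroup.centralizer (A : Set Γ)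
    rw [Subgroup.mem_centralizer_iff]
    intro y hy
    obtain ⟨k, rfl⟩ := Subgroup.mem_zpowers_iff.1 hy
    have hc : Commute x g := hgx
    exact (hc.zpow_left k)
  by_cases hΦb : Φ = ⊥
  · -- the abelian case
    exfalso
    have hPc : ∀ a ∈ P, ∀ b ∈ P, a * b = b * a := by
      intro a ha b hb
      have := hcomPP a ha b hb
      rw [hΦb, Subgroup.mem_bot, commutatorElement_eq_one_iff_mul_comm] at this
      exact this
    have hcard : (Nat.card P : K) ≠ 0 := by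
      obtain ⟨m, hm⟩ := IsPGroup.iff_card.mp hPp
      rw [hm]
      push_cast
      exact pow_ne_zero _ hqK
    have hPb : P ≠ ⊥ := by
      intro h
      apply hPne
      rw [h]
      exact Subgroup.commutator_bot_left _
    obtain ⟨a₀, ha₀⟩ := Subgroup.ne_bot_iff_exists_ne_one.1 hPb
    refine fix_of_abelian ρ P hPc hcard x hxP hxP' hs hxs ?_ a₀ a₀.2 ?_ hker
    · intro a ha hc
      have := hfixP a ha hc
      rwa [hΦb, Subgroup.mem_bot] at this
    · intro h
      apply ha₀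
      apply Subtype.ext
      apply hρ
      rw [h, Subgroup.coe_one, map_one]
  · -- the special case
    have hnotle : ∃ g ∈ P, g ∉ Φ := by
      by_contra hall
      push Not at hall
      apply hPne
      rw [eq_bot_iff, Subgroup.commutator_le]
      intro g hg y hy
      have := hAΦ g (hall g hg) y hy
      rw [Subgroup.mem_bot, commutatorElement_eq_one_iff_mul_comm]
      exact this.symm
    obtain ⟨N, hN1, hN2, hN3⟩ := layer2 ρ hρ hq hs hqs hqK hsK x hxs P Φ hPp hΦP hxP (fun f hf => hAΦ f hf x hxA)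
      hΦcen hcomPP hfixP hΦb hnotle
      (by
        intro L hLΦ hLne g hg hgL
        -- the radical
        let R : Subgroup Γ :=
          { carrier := {a | a ∈ P ∧ ∀ h ∈ P, ⁅a, h⁆ ∈ L}
            one_mem' := ⟨P.one_mem, fun h _ => by simp [L.one_mem]⟩
            mul_mem' := by
              rintro a b ⟨ha, ha'⟩ ⟨hb, hb'⟩
              refine ⟨P.mul_mem ha hb, ?_⟩
              intro h hh
              have e : ⁅a * b, h⁆ = a * ⁅b, h⁆ * a⁻¹ * ⁅a, h⁆ := by
                simp only [commutatorElement_def]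
                group
              rw [e, (hΦcen _ (hLΦ (hb' h hh)) _ ha).symm]
              simpa using L.mul_mem (hb' h hh) (ha' h hh)
            inv_mem' := by
              rintro a ⟨ha, ha'⟩
              refine ⟨P.inv_mem ha, ?_⟩
              intro h hh
              have e : ⁅a⁻¹, h⁆ = a⁻¹ * ⁅a, h⁆⁻¹ * a := by
                simp only [commutatorElement_def]
                group
              rw [e, mul_assoc, hΦcen _ (Φ.inv_mem (hLΦ (ha' h hh))) _ ha, inv_mul_cancel_left]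
              exact L.inv_mem (ha' h hh) }
        have hmemR : ∀ a, a ∈ R ↔ a ∈ P ∧ ∀ h ∈ P, ⁅a, h⁆ ∈ L := fun a => Iff.rfl
        have hΦR : Φ ≤ R := by
          intro f hf
          refine ⟨hΦP hf, fun h hh => ?_⟩
          have := hΦcen f hf h hh
          rw [(commutatorElement_eq_one_iff_mul_comm).2 this]
          exact L.one_mem
        have hconj : ∀ y ∈ A, ∀ a ∈ R, y * a * y⁻¹ ∈ R := by
          intro y hy a ha
          obtain ⟨ha1, ha2⟩ := (hmemR a).1 ha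
          refine ⟨(Subgroup.mem_normalizer_iff.1 (hAP hy) a).1 ha1, ?_⟩
          intro h hh
          have hh' : y⁻¹ * h * y ∈ P := by
            have := (Subgroup.mem_normalizer_iff.1 ((Subgroup.normalizer (P : Set Γ)).inv_mem (hAP hy)) h).1 hh
            simpa using this
          have e : ⁅y * a * y⁻¹, h⁆ = y * ⁅a, y⁻¹ * h * y⁆ * y⁻¹ := by
            simp only [commutatorElement_def]
            group
          have h7 := ha2 _ hh'
          rw [e, hAΦ _ (hLΦ h7) y hy]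
          simpa using h7
        have hAR : A ≤ Subgroup.normalizer (R : Set Γ) := by
          intro y hy
          rw [Subgroup.mem_normalizer_iff]
          intro a
          refine ⟨hconj y hy a, fun h => ?_⟩
          have := hconj y⁻¹ (A.inv_mem hy) _ h
          simpa [mul_assoc] using this
        rcases h6 R hΦR (fun a ha => ha.1) hAR with h8 | h8
        · rw [← h8]
          exact ⟨hg, hgL⟩
        · exfalso
          apply hLne
          apply le_antisymm hLΦ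
          rw [← h3, Subgroup.commutator_le]
          intro a ha b hb
          have : a ∈ R := by rw [h8]; exact ha
          exact this.2 b hb)
      hker
    have hdvd : Φ.relIndex P ∣ Nat.card P := Subgroup.relIndex_dvd_card Φ P
    obtain ⟨m, hm⟩ := IsPGroup.iff_card.mp hPp
    rw [hm, ← hN1] at hdvd
    have hNdvd : N ∣ q ^ m := (dvd_pow_self N two_ne_zero).trans hdvd
    obtain ⟨j, -, hj⟩ := (Nat.dvd_prime_pow hq).1 hNdvd
    have hj0 : j ≠ 0 := by
      rintro rfl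
      rw [pow_zero] at hj
      omega
    have hq2 : q = 2 := by
      by_contra hne
      have hodd : Odd q := hq.odd_of_ne_two hne
      have hNodd : Odd N := by rw [hj]; exact hodd.pow
      have hseven : Even s := by rw [← hN3]; exact hNodd.add_one
      have hs2 : s = 2 := (hs.even_iff).1 hseven
      omega
    refine ⟨hq2, ⟨j, ?_⟩, ?_⟩
    · rw [← hN3, hj, hq2]
    · intro hcomm
      apply hΦb
      rw [← h3, eq_bot_iff, Subgroup.commutator_le]
      intro a ha b hb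
      rw [Subgroup.mem_bot, commutatorElement_eq_one_iff_mul_comm]
      have := hcomm.is_comm.comm ⟨a, hPQ ha⟩ ⟨b, hPQ hb⟩
      exact congrArg Subtype.val this

end Layer4

section Bridge

open TensorProduct

universe u

variable {p : ℕ} [hp : Fact p.Prime]

/-- Extension of scalars to the algebraic closure. -/
theorem exists_closure_rep {Γ : Type*} [Group Γ] {E : Type u} [AddCommGroup E] [Module (ZMod p) E] [Finite E]
    (ρ : Γ →* Module.End (ZMod p) E) :
    ∃ (U : Type u) (_ : AddCommGroup U) (_ : Module (AlgebraicClosure (ZMod p)) U)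
      (_ : FiniteDimensional (AlgebraicClosure (ZMod p)) U)
      (ρ' : Γ →* (Module.End (AlgebraicClosure (ZMod p)) U)ˣ),
      (∀ g, ρ' g = 1 → ρ g = 1) ∧
      (∀ g, (∀ v, ρ g v = v → v = 0) →
        LinearMap.ker ((ρ' g : Module.End (AlgebraicClosure (ZMod p)) U) - 1) = ⊥) ∧
      (∀ g, Module.finrank (AlgebraicClosure (ZMod p))
        (LinearMap.ker ((ρ' g : Module.End (AlgebraicClosure (ZMod p)) U) - 1)) ≤
          Module.finrank (ZMod p) (LinearMap.ker (ρ g - 1))) := by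
  classical
  haveI : Module.Finite (ZMod p) E := Module.Finite.of_finite
  let F := AlgebraicClosure (ZMod p)
  let φ : Module.End (ZMod p) E →ₐ[ZMod p] Module.End F (F ⊗[ZMod p] E) := Module.End.baseChangeHom (ZMod p) F E
  have hφ : ∀ f, φ f = f.baseChange F := fun f => rfl
  let ρ₁ : Γ →* Module.End F (F ⊗[ZMod p] E) := (φ : Module.End (ZMod p) E →* Module.End F (F ⊗[ZMod p] E)).comp ρ
  have hρ₁ : ∀ g, ρ₁ g = φ (ρ g) := fun g => rfl
  have hsub : ∀ g, ((ρ₁.toHomUnits g : (Module.End F (F ⊗[ZMod p] E))ˣ) : Module.End F (F ⊗[ZMod p] E)) - 1 =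
      φ (ρ g - 1) := by
    intro g
    rw [map_sub, map_one]
    rfl
  refine ⟨F ⊗[ZMod p] E, inferInstance, inferInstance, inferInstance, ρ₁.toHomUnits, ?_, ?_, ?_⟩
  · intro g hg
    have h1 : ρ₁ g = 1 := by
      have := congrArg (fun u : (Module.End F (F ⊗[ZMod p] E))ˣ => (u : Module.End F (F ⊗[ZMod p] E))) hg
      simpa using this
    rw [hρ₁, ← map_one φ] at h1
    exact LinearMap.baseChangeHom_injective (ZMod p) E F h1
  · intro g hg
    have hf : Function.Injective (ρ g - 1 : Module.End (ZMod p) E) := by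
      rw [injective_iff_map_eq_zero]
      intro v hv
      apply hg
      exact sub_eq_zero.1 hv
    have hbij : Function.Bijective (ρ g - 1 : Module.End (ZMod p) E) := ⟨hf, Finite.surjective_of_injective hf⟩
    have hu : IsUnit (ρ g - 1) := (Module.End.isUnit_iff _).2 hbij
    have hu' : IsUnit (φ (ρ g - 1)) := hu.map φ
    rw [← hsub] at hu'
    exact LinearMap.ker_eq_bot.2 ((Module.End.isUnit_iff _).1 hu').1
  · intro g
    rw [hsub]
    set f := ρ g - 1 with hf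
    have hex : Function.Exact (LinearMap.ker f).subtype f := LinearMap.exact_subtype_ker_map f
    have hex' := Module.Flat.lTensor_exact F hex
    have hker : LinearMap.ker (φ f) =
        (LinearMap.range ((LinearMap.ker f).subtype.baseChange F)) := by
      ext w
      rw [LinearMap.mem_ker, LinearMap.mem_range]
      have h3 := hex' w
      rw [hφ, LinearMap.baseChange_eq_ltensor, h3]
      rfl
    rw [hker]
    calc Module.finrank F (LinearMap.range ((LinearMap.ker f).subtype.baseChange F))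
        ≤ Module.finrank F (F ⊗[ZMod p] (LinearMap.ker f)) := LinearMap.finrank_range_le _
      _ = Module.finrank (ZMod p) (LinearMap.ker f) := Module.finrank_baseChange

end Bridge

end Cfsg.Agent.Lib.HHFree
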