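import Cfsg.Agent.Lib.InvolutionFusion2

/-!
# The Thompson order formula
-/

set_option linter.style.haveILetI false
set_option linter.unusedSectionVars false

namespace Cfsg.Agent.Lib.ThompsonOrder

open Cfsg.Agent.Lib.InvolutionPairs Cfsg.Agent.Lib.InvolutionFusion

variable {G : Type*} [Group G]

/-- The unique involution of a cyclic subgroup of even order. -/
lemma eq_half_pow_of_mem_zpowers {w y : G} (hw : Even (orderOf w)) (hy : y ∈ Subgroup.zpowers w)
    (hyo : orderOf y = 2) : y = w ^ (orderOf w / 2) := by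
  obtain ⟨k, rfl⟩ := Subgroup.mem_zpowers_iff.1 hy
  obtain ⟨l, hl⟩ := hw
  have hl2 : orderOf w / 2 = l := by omega
  rw [hl2]
  have h1 : w ^ (k + k) = 1 := by
    rw [zpow_add]
    exact mul_self_of_orderOf hyo
  have h2 := orderOf_dvd_iff_zpow_eq_one.2 h1
  rw [hl] at h2
  obtain ⟨c, hc⟩ := h2
  have hz : w ^ l * w ^ l = 1 := by
    rw [← pow_add, ← hl, pow_orderOf_eq_one]
  have hk : k = l * c := by
    push_cast at hc
    linarith
  rw [hk, zpow_mul, zpow_natCast]
  rcases Int.even_or_odd' c with ⟨d, rfl | rfl⟩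
  · exfalso
    apply ne_one_of_orderOf hyo
    rw [hk, zpow_mul, zpow_natCast, zpow_mul, zpow_two, hz, one_zpow]
  · rw [zpow_add, zpow_mul, zpow_two, hz, one_zpow, one_mul, zpow_one]

/-- Counting pairs with a given involution in the cyclic group generated by the product; conjugation
invariance. -/
lemma card_fiber_conj (a b x : G) (g : G) :
    Nat.card {p : G × G // IsConj a p.1 ∧ IsConj b p.2 ∧ g * x * g⁻¹ ∈ Subgroup.zpowers (p.1 * p.2)} =
      Nat.card {p : G × G // IsConj a p.1 ∧ IsConj b p.2 ∧ x ∈ Subgroup.zpowers (p.1 * p.2)} := by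
  apply Nat.card_congr
  have hzp : ∀ (h u v y : G), y ∈ Subgroup.zpowers (u * v) →
      h * y * h⁻¹ ∈ Subgroup.zpowers ((h * u * h⁻¹) * (h * v * h⁻¹)) := by
    intro h u v y hy
    obtain ⟨k, rfl⟩ := Subgroup.mem_zpowers_iff.1 hy
    refine Subgroup.mem_zpowers_iff.2 ⟨k, ?_⟩
    have e : (h * u * h⁻¹) * (h * v * h⁻¹) = h * (u * v) * h⁻¹ := by group
    rw [e, _root_.conj_zpow]
  have hcj : ∀ (h u c : G), IsConj c u → IsConj c (h * u * h⁻¹) := fun h u c hc =>
    hc.trans (isConj_iff.2 ⟨h, rfl⟩)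
  refine ⟨fun p => ⟨(g⁻¹ * p.1.1 * g, g⁻¹ * p.1.2 * g), ?_, ?_, ?_⟩,
    fun p => ⟨(g * p.1.1 * g⁻¹, g * p.1.2 * g⁻¹), ?_, ?_, ?_⟩, ?_, ?_⟩
  · have := hcj g⁻¹ p.1.1 a p.2.1
    simpa using this
  · have := hcj g⁻¹ p.1.2 b p.2.2.1
    simpa using this
  · have := hzp g⁻¹ p.1.1 p.1.2 _ p.2.2.2
    simp only [inv_inv] at this
    have e : g⁻¹ * (g * x * g⁻¹) * g = x := by group
    rwa [e] at this
  · exact hcj g _ a p.2.1
  · exact hcj g _ b p.2.2.1
  · exact hzp g _ _ _ p.2.2.2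
  · rintro ⟨⟨u, v⟩, hu⟩
    apply Subtype.ext
    simp only [Prod.mk.injEq]
    constructor <;> group
  · rintro ⟨⟨u, v⟩, hu⟩
    apply Subtype.ext
    simp only [Prod.mk.injEq]
    constructor <;> group

/-- The Thompson order formula. -/
theorem thompson_order_formula [Finite G] (x₁ x₂ : G) (h₁ : orderOf x₁ = 2) (h₂ : orderOf x₂ = 2)
    (hnc : ¬ IsConj x₁ x₂) (hall : ∀ t : G, orderOf t = 2 → IsConj x₁ t ∨ IsConj x₂ t) :
    Nat.card G = Nat.card (Subgroup.centralizer ({x₂} : Set G)) *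
        Nat.card {p : G × G // IsConj x₁ p.1 ∧ IsConj x₂ p.2 ∧ x₁ ∈ Subgroup.zpowers (p.1 * p.2)} +
      Nat.card (Subgroup.centralizer ({x₁} : Set G)) *
        Nat.card {p : G × G // IsConj x₁ p.1 ∧ IsConj x₂ p.2 ∧ x₂ ∈ Subgroup.zpowers (p.1 * p.2)} := by
  classical
  haveI := Fintype.ofFinite G
  set n₁ := Nat.card {p : G × G // IsConj x₁ p.1 ∧ IsConj x₂ p.2 ∧ x₁ ∈ Subgroup.zpowers (p.1 * p.2)}
    with hn₁
  set n₂ := Nat.card {p : G × G // IsConj x₁ p.1 ∧ IsConj x₂ p.2 ∧ x₂ ∈ Subgroup.zpowers (p.1 * p.2)}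
    with hn₂
  let A : Finset G := Finset.univ.filter (fun u => IsConj x₁ u)
  let B : Finset G := Finset.univ.filter (fun u => IsConj x₂ u)
  have hA : A.card = Nat.card {u : G // IsConj x₁ u} := by
    rw [Nat.card_eq_fintype_card, Fintype.card_subtype]
  have hB : B.card = Nat.card {u : G // IsConj x₂ u} := by
    rw [Nat.card_eq_fintype_card, Fintype.card_subtype]
  have hAc := card_conj_mul_card_centralizer x₁
  have hBc := card_conj_mul_card_centralizer x₂
  rw [← hA] at hAc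
  rw [← hB] at hBc
  let PP : Finset (G × G) := A ×ˢ B
  let z : G × G → G := fun p => (p.1 * p.2) ^ (orderOf (p.1 * p.2) / 2)
  -- properties of pairs
  have hPP : ∀ p ∈ PP, IsConj x₁ p.1 ∧ IsConj x₂ p.2 := by
    intro p hp
    simpa [PP, A, B] using hp
  have hinv1 : ∀ u : G, IsConj x₁ u → orderOf u = 2 := by
    intro u hu
    rw [← orderOf_eq_of_isConj hu]; exact h₁
  have hinv2 : ∀ u : G, IsConj x₂ u → orderOf u = 2 := by
    intro u hu
    rw [← orderOf_eq_of_isConj hu]; exact h₂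
  have heven : ∀ p ∈ PP, Even (orderOf (p.1 * p.2)) := by
    intro p hp
    obtain ⟨h1, h2⟩ := hPP p hp
    by_contra hodd
    rw [Nat.not_even_iff_odd] at hodd
    obtain ⟨d, _, hd⟩ := exists_conj_of_odd p.1 p.2
      (mul_self_of_orderOf (hinv1 _ h1)) (mul_self_of_orderOf (hinv2 _ h2)) hodd
    exact hnc (h1.trans ((isConj_iff.2 ⟨d, hd⟩).trans h2.symm))
  have hzinv : ∀ p ∈ PP, orderOf (z p) = 2 := fun p hp =>
    orderOf_half_pow _ (heven p hp) (orderOf_pos _)
  have hJ : ∀ p ∈ PP, z p ∈ A ∪ B := by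
    intro p hp
    rw [Finset.mem_union]
    rcases hall _ (hzinv p hp) with h | h
    · left; simpa [A] using h
    · right; simpa [B] using h
  -- fibres
  have hfib : ∀ y : G, orderOf y = 2 → (PP.filter (fun p => z p = y)).card =
      Nat.card {p : G × G // IsConj x₁ p.1 ∧ IsConj x₂ p.2 ∧ y ∈ Subgroup.zpowers (p.1 * p.2)} := by
    intro y hy
    rw [Nat.card_eq_fintype_card, Fintype.card_subtype]
    congr 1
    ext p
    simp only [Finset.mem_filter, Finset.mem_univ, true_and]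
    constructor
    · rintro ⟨hp, rfl⟩
      obtain ⟨h1, h2⟩ := hPP p hp
      exact ⟨h1, h2, Subgroup.npow_mem_zpowers _ _⟩
    · rintro ⟨h1, h2, h3⟩
      have hp : p ∈ PP := by
        simp only [PP, Finset.mem_product, A, B, Finset.mem_filter, Finset.mem_univ, true_and]
        exact ⟨h1, h2⟩
      exact ⟨hp, (eq_half_pow_of_mem_zpowers (heven p hp) h3 hy).symm⟩
  have hfibA : ∀ y ∈ A, (PP.filter (fun p => z p = y)).card = n₁ := by
    intro y hy
    have hy' : IsConj x₁ y := by simpa [A] using hy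
    rw [hfib y (hinv1 y hy')]
    obtain ⟨g, rfl⟩ := isConj_iff.1 hy'
    exact card_fiber_conj x₁ x₂ x₁ g
  have hfibB : ∀ y ∈ B, (PP.filter (fun p => z p = y)).card = n₂ := by
    intro y hy
    have hy' : IsConj x₂ y := by simpa [B] using hy
    rw [hfib y (hinv2 y hy')]
    obtain ⟨g, rfl⟩ := isConj_iff.1 hy'
    exact card_fiber_conj x₁ x₂ x₂ g
  have hdisj : Disjoint A B := by
    rw [Finset.disjoint_left]
    intro y hyA hyB
    have h1 : IsConj x₁ y := by simpa [A] using hyA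
    have h2 : IsConj x₂ y := by simpa [B] using hyB
    exact hnc (h1.trans h2.symm)
  have hcount : A.card * B.card = A.card * n₁ + B.card * n₂ := by
    rw [← Finset.card_product]
    show PP.card = _
    rw [Finset.card_eq_sum_card_fiberwise (f := z) (t := A ∪ B) hJ,
      Finset.sum_union hdisj, Finset.sum_congr rfl hfibA, Finset.sum_congr rfl hfibB,
      Finset.sum_const, Finset.sum_const, smul_eq_mul, smul_eq_mul]
  -- algebra
  set a := A.card
  set b := B.card
  set c₁ := Nat.card (Subgroup.centralizer ({x₁} : Set G))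
  set c₂ := Nat.card (Subgroup.centralizer ({x₂} : Set G))
  set n := Nat.card G
  have hnpos : 0 < n := Nat.card_pos
  apply Nat.eq_of_mul_eq_mul_left hnpos
  calc n * n = (a * c₁) * (b * c₂) := by rw [hAc, hBc]
    _ = (a * b) * (c₁ * c₂) := by ring
    _ = (a * n₁ + b * n₂) * (c₁ * c₂) := by rw [hcount]
    _ = (a * c₁) * (c₂ * n₁) + (b * c₂) * (c₁ * n₂) := by ring
    _ = n * (c₂ * n₁ + c₁ * n₂) := by rw [hAc, hBc]; ring

end Cfsg.Agent.Lib.ThompsonOrder
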