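import Mathlib
import Cfsg.Agent.Lib.HJBase
import Cfsg.Agent.Lib.CITFour
import Cfsg.Agent.Lib.OmegaFourTwo
import Cfsg.Agent.Lib.ThompsonOrder
import Cfsg.Agent.S3313

set_option autoImplicit false
set_option linter.all false

namespace Cfsg.Agent.Lib.HJType

open Cfsg.Agent.Lib.HJBase Cfsg.Agent.Lib.CITFour
open Cfsg.Agent.S3313 (core_facts commute_of_inv order_conj order_two sq_of_order)

variable {G : Type*} [Group G]

/-- The centralizer. -/
abbrev HH (z : G) := Subgroup.centralizer ({z} : Set G)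

/-- The central involution in its centralizer. -/
def zH (z : G) : HH z := ⟨z, Subgroup.mem_centralizer_singleton_iff.2 rfl⟩

theorem mem_HH {x z : G} : x ∈ HH z ↔ x * z = z * x := Subgroup.mem_centralizer_singleton_iff

theorem zH_val (z : G) : (zH z).1 = z := rfl

theorem isConj_inv_mem {z y : G} (h : IsConj z y) : y = y := rfl

/-- The base structure from the hypotheses of the order theorem. -/
theorem base [Finite G] (z : G) (hz : orderOf z = 2) (Q : Subgroup (HH z)) [Q.Normal]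
    (hF : Cfsg.generalizedFittingSubgroup (HH z) = Q) (hQ : Cfsg.IsExtraspecial 2 Q)
    (hcard : Nat.card Q = 2 ^ 5)
    (e : (HH z) ⧸ Q ≃* Cfsg.Omega (ZMod 2) (Cfsg.quadFormMinus 1 (ZMod 2) 1 1)) :
    HB Q (zH z) := by
  have hzz : z * z = 1 := sq_of_order hz
  have hz1 : z ≠ 1 := by
    rintro rfl
    simp at hz
  have hz₀1 : zH z ≠ 1 := fun e => hz1 (congrArg Subtype.val e)
  have hz₀2 : zH z * zH z = 1 := Subtype.ext hzz
  have hz₀c : ∀ g : HH z, g * zH z = zH z * g := by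
    intro g
    apply Subtype.ext
    exact mem_HH.1 g.2
  have hex : Cfsg.IsExtraspecial 2 ↥(Cfsg.generalizedFittingSubgroup (HH z)) := by
    rw [hF]; exact hQ
  obtain ⟨heq, hzm, hsq, hcm, hcen, hfaith⟩ := core_facts hz₀1 hz₀2 hz₀c hex
  have hp : Cfsg.pCore 2 (HH z) = Q := heq.trans hF
  rw [hp] at hzm hsq hcm hcen hfaith
  obtain ⟨e'⟩ := Cfsg.Agent.Lib.OmegaFourTwo.omega_equiv
  refine ⟨inferInstance, hzm, hz₀1, hz₀2, hz₀c, hsq, hcm, hcen, by rw [hcard]; norm_num, hfaith, ?_⟩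
  refine ⟨(e.trans e').toMonoidHom.comp (QuotientGroup.mk' Q), ?_, ?_⟩
  · exact (e.trans e').surjective.comp (QuotientGroup.mk'_surjective Q)
  · intro g
    show (e.trans e') (QuotientGroup.mk g) = 1 ↔ g ∈ Q
    rw [map_eq_one_iff _ (e.trans e').injective, QuotientGroup.eq_one_iff]

variable {z : G} {Q : Subgroup (HH z)}

theorem zconj_inv {y : G} (hy : IsConj z y) (hz : z * z = 1) : y * y = 1 := by
  obtain ⟨c, rfl⟩ := isConj_iff.1 hy
  calc c * z * c⁻¹ * (c * z * c⁻¹) = c * (z * z) * c⁻¹ := by group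
    _ = 1 := by rw [hz]; group

theorem zconj_ne {y : G} (hy : IsConj z y) (hz : z ≠ 1) : y ≠ 1 := by
  rintro rfl
  exact hz (isConj_one_right.1 hy.symm)

theorem set_conj (z : G) : ∀ u ∈ {y | IsConj z y}, ∀ g : G, g * u * g⁻¹ ∈ {y | IsConj z y} := by
  intro u hu g
  exact IsConj.trans hu (isConj_iff.2 ⟨g, rfl⟩)

/-- The class of the central involution has odd size. -/
theorem odd_class [Finite G] (h : HB Q (zH z)) : ¬ 2 ∣ Nat.card {y | IsConj z y} := by
  haveI : Fact (Nat.Prime 2) := ⟨Nat.prime_two⟩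
  intro hd
  have hz1 : z ≠ 1 := fun e => h.z1 (Subtype.ext e)
  have hQinj : Function.Injective (HH z).subtype := Subtype.val_injective
  set P := Q.map (HH z).subtype with hP
  have hPc : Nat.card P = 2 ^ 5 := by
    rw [hP, Subgroup.card_map_of_injective hQinj, h.card32]
    norm_num
  have hPp : IsPGroup 2 P := IsPGroup.of_card hPc
  obtain ⟨b, hb, hne, hfix⟩ := second_fixed {y | IsConj z y} (set_conj z) 2 P hPp hd
    (a := z) (IsConj.refl z) (by
      rintro s ⟨s', -, rfl⟩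
      exact mem_HH.1 s'.2)
  have hzP : z ∈ P := ⟨zH z, h.zQ, rfl⟩
  have hbH : b ∈ HH z := mem_HH.2 (hfix z hzP).eq.symm
  have hbf : (⟨b, hbH⟩ : HH z) ∈ Q := by
    apply h.faith
    intro x hx
    apply Subtype.ext
    exact (hfix x.1 ⟨x, hx, rfl⟩).eq.symm
  by_cases e1 : (⟨b, hbH⟩ : HH z) = 1
  · exact zconj_ne hb hz1 (congrArg Subtype.val e1)
  · by_cases e2 : (⟨b, hbH⟩ : HH z) = zH z
    · exact hne (congrArg Subtype.val e2)
    · obtain ⟨y, hy, hny⟩ := h.cen _ hbf e1 e2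
      apply hny
      apply Subtype.ext
      exact (hfix y.1 ⟨y, hy, rfl⟩).eq.symm

/-- Every involution can be conjugated into the centralizer. -/
theorem conj_into [Finite G] (h : HB Q (zH z)) {y : G} (hy : y * y = 1) :
    ∃ g : G, g * y * g⁻¹ ∈ HH z := by
  haveI : Fact (Nat.Prime 2) := ⟨Nat.prime_two⟩
  have h1 := card_mod_conj {y | IsConj z y} (set_conj z) 2 1 y (by simpa [pow_two] using hy)
  have h2 := odd_class h
  have h3 : Nat.card {x : {y | IsConj z y} // y * x.1 * y⁻¹ = x.1} % 2 = 1 := by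
    unfold Nat.ModEq at h1
    have : Nat.card {y | IsConj z y} % 2 ≠ 0 := fun e => h2 (Nat.dvd_of_mod_eq_zero e)
    omega
  have h4 : Nonempty {x : {y | IsConj z y} // y * x.1 * y⁻¹ = x.1} := by
    by_contra hne
    rw [not_nonempty_iff] at hne
    rw [Nat.card_of_isEmpty] at h3
    omega
  obtain ⟨⟨⟨w, hw⟩, hfix⟩⟩ := h4
  obtain ⟨c, rfl⟩ := isConj_iff.1 hw
  refine ⟨c⁻¹, mem_HH.2 ?_⟩
  have hcm : Commute y (c * z * c⁻¹) := comm_of_conj_eq hfix
  have := cconj hcm c⁻¹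
  have e1 : c⁻¹ * (c * z * c⁻¹) * c⁻¹⁻¹ = z := by group
  rw [e1] at this
  exact this

/-- The configuration. -/
structure TC (z : G) (t₀ : HH z) (Q : Subgroup (HH z)) : Prop where
  b : HB Q (zH z)
  tt : t₀ * t₀ = 1
  tQ : t₀ ∉ Q
  Qz : ∀ x : HH z, x ∈ Q → x * x = 1 → x ≠ 1 → IsConj z x.1
  zt : ¬ IsConj z t₀.1
  all : ∀ y : G, y * y = 1 → y ≠ 1 → IsConj z y ∨ IsConj t₀.1 y

/-- The configuration exists under the hypotheses. -/
theorem exists_TC [Finite G] (h : HB Q (zH z))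
    (hnwc : ∃ g : G, (∃ hq : g * z * g⁻¹ ∈ HH z, (⟨g * z * g⁻¹, hq⟩ : HH z) ∈ Q) ∧ g * z * g⁻¹ ≠ z)
    (hcl : ∃ x y : G, orderOf x = 2 ∧ orderOf y = 2 ∧ ¬ IsConj x y) : ∃ t₀ : HH z, TC z t₀ Q := by
  have hzz : z * z = 1 := congrArg Subtype.val h.z2
  have hz1 : z ≠ 1 := fun e => h.z1 (Subtype.ext e)
  have hQz : ∀ x : HH z, x ∈ Q → x * x = 1 → x ≠ 1 → IsConj z x.1 := by
    obtain ⟨g, ⟨hq, hmem⟩, hne⟩ := hnwc
    intro x hx hxx hx1
    by_cases hxz : x = zH z
    · rw [hxz]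
      exact IsConj.refl z
    · let s₀ : Cfsg.Agent.Lib.HJBase.St Q (zH z) := ⟨⟨g * z * g⁻¹, hq⟩, hmem, by
        apply Subtype.ext
        show g * z * g⁻¹ * (g * z * g⁻¹) = 1
        exact zconj_inv (isConj_iff.2 ⟨g, rfl⟩) hzz, by
        intro e
        exact zconj_ne (isConj_iff.2 ⟨g, rfl⟩) hz1 (congrArg Subtype.val e), by
        intro e
        exact hne (congrArg Subtype.val e)⟩
      let x' : Cfsg.Agent.Lib.HJBase.St Q (zH z) := ⟨x, hx, hxx, hx1, hxz⟩
      obtain ⟨k, hk⟩ := h.trans_St s₀ x'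
      have e : k.1 * (g * z * g⁻¹) * k.1⁻¹ = x.1 := congrArg Subtype.val hk
      exact isConj_iff.2 ⟨k.1 * g, by rw [← e]; group⟩
  have hinto : ∀ y : G, y * y = 1 → y ≠ 1 → ∃ x : HH z, x * x = 1 ∧ x ≠ 1 ∧ IsConj x.1 y := by
    intro y hy hy1
    obtain ⟨g, hg⟩ := conj_into h hy
    refine ⟨⟨g * y * g⁻¹, hg⟩, ?_, ?_, ?_⟩
    · apply Subtype.ext
      show g * y * g⁻¹ * (g * y * g⁻¹) = 1
      calc g * y * g⁻¹ * (g * y * g⁻¹) = g * (y * y) * g⁻¹ := by group
        _ = 1 := by rw [hy]; group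
    · intro e
      apply hy1
      have e2 : g * y * g⁻¹ = 1 := congrArg Subtype.val e
      calc y = g⁻¹ * (g * y * g⁻¹) * g := by group
        _ = 1 := by rw [e2]; group
    · exact (isConj_iff.2 ⟨g, rfl⟩ : IsConj y (g * y * g⁻¹)).symm
  have hex : ∃ t₀ : HH z, t₀ * t₀ = 1 ∧ t₀ ∉ Q ∧ ¬ IsConj z t₀.1 := by
    by_contra hcon
    push Not at hcon
    obtain ⟨a, b, ha, hb, hab⟩ := hcl
    have hallz : ∀ y : G, orderOf y = 2 → IsConj z y := by
      intro y hy
      have hyy := sq_of_order hy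
      have hy1 : y ≠ 1 := by
        rintro rfl
        simp at hy
      obtain ⟨x, hxx, hx1, hxy⟩ := hinto y hyy hy1
      by_cases hxQ : x ∈ Q
      · exact (hQz x hxQ hxx hx1).trans hxy
      · exact (hcon x hxx hxQ).trans hxy
    exact hab ((hallz a ha).symm.trans (hallz b hb))
  obtain ⟨t₀, htt, htQ, hzt⟩ := hex
  refine ⟨t₀, h, htt, htQ, hQz, hzt, ?_⟩
  intro y hy hy1
  obtain ⟨x, hxx, hx1, hxy⟩ := hinto y hy hy1
  by_cases hxQ : x ∈ Q
  · exact Or.inl ((hQz x hxQ hxx hx1).trans hxy)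
  · right
    obtain ⟨k, hk⟩ := h.trans_W htt htQ hxx hxQ
    have e : k.1 * t₀.1 * k.1⁻¹ = x.1 := congrArg Subtype.val hk
    exact (isConj_iff.2 ⟨k.1, e⟩ : IsConj t₀.1 x.1).trans hxy


namespace TC

variable {t₀ : HH z}

theorem zz (h : TC z t₀ Q) : z * z = 1 := congrArg Subtype.val h.b.z2

theorem z1 (h : TC z t₀ Q) : z ≠ 1 := fun e => h.b.z1 (Subtype.ext e)

theorem tt' (h : TC z t₀ Q) : t₀.1 * t₀.1 = 1 := congrArg Subtype.val h.tt

theorem t1 (h : TC z t₀ Q) : t₀.1 ≠ 1 := by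
  intro e
  apply h.tQ
  have : t₀ = 1 := Subtype.ext e
  rw [this]
  exact Q.one_mem

theorem Wt [Finite G] (h : TC z t₀ Q) {x : HH z} (hx : x * x = 1) (hxQ : x ∉ Q) : IsConj t₀.1 x.1 := by
  obtain ⟨k, hk⟩ := h.b.trans_W h.tt h.tQ hx hxQ
  exact isConj_iff.2 ⟨k.1, congrArg Subtype.val hk⟩

theorem memQ [Finite G] (h : TC z t₀ Q) {x : HH z} (hx : IsConj z x.1) : x ∈ Q := by
  by_contra hn
  have hxx : x * x = 1 := Subtype.ext (zconj_inv hx h.zz)
  exact h.zt (hx.trans (h.Wt hxx hn).symm)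

theorem notQ [Finite G] (h : TC z t₀ Q) {x : HH z} (hx : IsConj t₀.1 x.1) : x ∉ Q := by
  intro hq
  have hxx : x.1 * x.1 = 1 := by
    obtain ⟨c, hc⟩ := isConj_iff.1 hx
    rw [← hc]
    calc c * t₀.1 * c⁻¹ * (c * t₀.1 * c⁻¹) = c * (t₀.1 * t₀.1) * c⁻¹ := by group
      _ = 1 := by rw [h.tt']; group
  have hx1 : x ≠ 1 := by
    intro e
    rw [e] at hx
    exact h.t1 (isConj_one_right.1 hx.symm)
  exact h.zt ((h.Qz x hq (Subtype.ext hxx) hx1).trans hx.symm)

theorem oz (h : TC z t₀ Q) : orderOf z = 2 := order_two h.zz h.z1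

theorem ot (h : TC z t₀ Q) : orderOf t₀.1 = 2 := order_two h.tt' h.t1

theorem all' (h : TC z t₀ Q) (y : G) (hy : orderOf y = 2) : IsConj z y ∨ IsConj t₀.1 y := by
  apply h.all y (sq_of_order hy)
  rintro rfl
  simp at hy

/-- The first count. -/
theorem count_z [Finite G] (h : TC z t₀ Q) :
    Nat.card {p : G × G // IsConj z p.1 ∧ IsConj t₀.1 p.2 ∧ z ∈ Subgroup.zpowers (p.1 * p.2)} = 960 := by
  rw [← h.b.count h.tt h.tQ]
  symm
  have hinto : ∀ p : {p : HH z × HH z // p.1 ∈ Q ∧ p.1 * p.1 = 1 ∧ p.1 ≠ 1 ∧ p.2 ∉ Q ∧ p.2 * p.2 = 1 ∧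
      zH z ∈ Subgroup.zpowers (p.1 * p.2)},
      IsConj z p.1.1.1 ∧ IsConj t₀.1 p.1.2.1 ∧ z ∈ Subgroup.zpowers ((p.1.1.1 : G) * p.1.2.1) := by
    rintro ⟨⟨a, b⟩, h1, h2, h3, h4, h5, h6⟩
    simp only at h1 h2 h3 h4 h5 h6 ⊢
    refine ⟨h.Qz a h1 h2 h3, h.Wt h5 h4, ?_⟩
    obtain ⟨n, hn⟩ := Subgroup.mem_zpowers_iff.1 h6
    refine Subgroup.mem_zpowers_iff.2 ⟨n, ?_⟩
    have := congrArg Subtype.val hn
    simpa [zH] using this
  apply Nat.card_eq_of_bijective
    (fun p : {p : HH z × HH z // p.1 ∈ Q ∧ p.1 * p.1 = 1 ∧ p.1 ≠ 1 ∧ p.2 ∉ Q ∧ p.2 * p.2 = 1 ∧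
      zH z ∈ Subgroup.zpowers (p.1 * p.2)} =>
      (⟨(p.1.1.1, p.1.2.1), hinto p⟩ :
        {p : G × G // IsConj z p.1 ∧ IsConj t₀.1 p.2 ∧ z ∈ Subgroup.zpowers (p.1 * p.2)}))
  constructor
  · rintro ⟨⟨a, b⟩, h'⟩ ⟨⟨a', b'⟩, h''⟩ e
    have e1 : (a : G) = a' := congrArg (fun q => q.1.1) e
    have e2 : (b : G) = b' := congrArg (fun q => q.1.2) e
    apply Subtype.ext
    apply Prod.ext
    · exact Subtype.ext e1
    · exact Subtype.ext e2
  · rintro ⟨⟨u, v⟩, hu, hv, hzm'⟩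
    simp only at hu hv hzm'
    have huu : u * u = 1 := zconj_inv hu h.zz
    have hou : orderOf u = 2 := by rw [← order_conj hu, h.oz]
    have hov : orderOf v = 2 := by rw [← order_conj hv, h.ot]
    have hvv : v * v = 1 := sq_of_order hov
    obtain ⟨h1, h2⟩ := commute_of_inv huu hvv h.zz hzm'
    have huC : u ∈ HH z := mem_HH.2 h1
    have hvC : v ∈ HH z := mem_HH.2 h2
    have huQ : (⟨u, huC⟩ : HH z) ∈ Q := h.memQ hu
    have hvQ : (⟨v, hvC⟩ : HH z) ∉ Q := h.notQ hv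
    have hu1 : u ≠ 1 := zconj_ne hu h.z1
    obtain ⟨n, hn⟩ := Subgroup.mem_zpowers_iff.1 hzm'
    refine ⟨⟨(⟨u, huC⟩, ⟨v, hvC⟩), huQ, Subtype.ext huu, fun e => hu1 (congrArg Subtype.val e), hvQ,
      Subtype.ext hvv, Subgroup.mem_zpowers_iff.2 ⟨n, Subtype.ext ?_⟩⟩, ?_⟩
    · simpa [zH] using hn
    · rfl

/-- The centralizer of the second involution. -/
abbrev LL (t₀ : HH z) := HH t₀.1

/-- The central element. -/
def tL (t₀ : HH z) : LL t₀ := zH t₀.1

/-- The base point. -/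
def bL (t₀ : HH z) : LL t₀ := ⟨z, mem_HH.2 (mem_HH.1 t₀.2).symm⟩

/-- The set of points. -/
def setA (z : G) (t₀ : HH z) : Set (LL t₀) := {u | IsConj z u.1}

theorem bL_mem (h : TC z t₀ Q) : bL t₀ ∈ setA z t₀ := IsConj.refl z

theorem setA_sq (h : TC z t₀ Q) : ∀ u ∈ setA z t₀, u * u = 1 := fun u hu =>
  Subtype.ext (zconj_inv hu h.zz)

theorem setA_conj : ∀ u ∈ setA z t₀, ∀ g : LL t₀, g * u * g⁻¹ ∈ setA z t₀ := fun u hu g =>
  IsConj.trans hu (isConj_iff.2 ⟨g.1, rfl⟩)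

/-- Transitivity. -/
theorem setA_trans [Finite G] (h : TC z t₀ Q) : ∀ u ∈ setA z t₀, ∃ g : LL t₀, g * bL t₀ * g⁻¹ = u := by
  intro u hu
  obtain ⟨g, hg⟩ := isConj_iff.1 hu
  have hut : u.1 * t₀.1 = t₀.1 * u.1 := mem_HH.1 u.2
  set w := g⁻¹ * t₀.1 * g with hw
  have hwz : w * z = z * w := by
    have h1 : Commute u.1 t₀.1 := hut
    rw [← hg] at h1
    have h2 := cconj h1 g⁻¹
    have e1 : g⁻¹ * (g * z * g⁻¹) * g⁻¹⁻¹ = z := by group
    have e2 : g⁻¹ * t₀.1 * g⁻¹⁻¹ = w := by rw [hw, inv_inv]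
    rw [e1, e2] at h2
    exact h2.symm
  let w₀ : HH z := ⟨w, mem_HH.2 hwz⟩
  have hww : w₀ * w₀ = 1 := by
    apply Subtype.ext
    show w * w = 1
    calc w * w = g⁻¹ * (t₀.1 * t₀.1) * g := by rw [hw]; group
      _ = 1 := by rw [h.tt']; group
  have hwQ : w₀ ∉ Q := by
    apply h.notQ
    exact isConj_iff.2 ⟨g⁻¹, by rw [inv_inv]⟩
  obtain ⟨k, hk⟩ := h.b.trans_W h.tt h.tQ hww hwQ
  have e : k.1 * t₀.1 * k.1⁻¹ = w := congrArg Subtype.val hk
  have hy : (g * k.1) * t₀.1 = t₀.1 * (g * k.1) := by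
    have e2 : (g * k.1) * t₀.1 * (g * k.1)⁻¹ = t₀.1 := by
      rw [← conj_conj, e, hw]
      group
    exact comm_of_conj_eq e2
  refine ⟨⟨g * k.1, mem_HH.2 hy⟩, Subtype.ext ?_⟩
  show (g * k.1) * z * (g * k.1)⁻¹ = u.1
  have e3 : k.1 * z * k.1⁻¹ = z := conj_eq_of_comm (mem_HH.1 k.2)
  rw [← conj_conj, e3, hg]

/-- The order of the stabilizer of the base point. -/
theorem setA_card [Finite G] (h : TC z t₀ Q) :
    Nat.card (Subgroup.centralizer ({bL t₀} : Set (LL t₀))) = 16 := by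
  rw [← h.b.card_E h.tt h.tQ]
  apply Nat.card_congr
  refine ⟨fun c => ⟨⟨c.1.1, ?_⟩, ?_⟩, fun c => ⟨⟨c.1.1, ?_⟩, ?_⟩, fun c => rfl, fun c => rfl⟩
  · have := Subgroup.mem_centralizer_singleton_iff.1 c.2
    exact mem_HH.2 (congrArg Subtype.val this)
  · rw [Subgroup.mem_centralizer_singleton_iff]
    apply Subtype.ext
    exact mem_HH.1 c.1.2
  · have := Subgroup.mem_centralizer_singleton_iff.1 c.2
    exact mem_HH.2 (congrArg Subtype.val this)
  · rw [Subgroup.mem_centralizer_singleton_iff]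
    apply Subtype.ext
    exact mem_HH.1 c.1.2

/-- The structure of the line of the base point. -/
theorem setA_line [Finite G] (h : TC z t₀ Q) :
    ∃ a ∈ setA z t₀, a ≠ bL t₀ ∧ Commute a (bL t₀) ∧ bL t₀ * a ∈ setA z t₀ ∧
      (∀ c ∈ setA z t₀, Commute c (bL t₀) → c = bL t₀ ∨ c = a ∨ c = bL t₀ * a) ∧
      (∀ g : LL t₀, Commute g (bL t₀) → Commute g a) := by
  obtain ⟨u, F⟩ := h.b.frame_exists h.tt h.tQ
  set x₀ := Frame.ex u with hx₀
  have hxQ : x₀ ∈ Q := Frame.ex_mem F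
  have hxx : x₀ * x₀ = 1 := Frame.ex_sq h.b F
  have hxt : x₀ * t₀ = t₀ * x₀ := by
    have := Frame.v_ex h.b F
    have hi : t₀⁻¹ = t₀ := inv_eq_of_mul_eq_one_left h.tt
    have e2 : t₀ * x₀ * t₀⁻¹ = x₀ := by rw [hi]; exact this
    exact (comm_of_conj_eq e2).symm
  have hx1 : x₀ ≠ 1 := by
    intro e
    apply Frame.ex_comm h.b F 0
    rw [← hx₀, e]
    simp
  have hxz : x₀ ≠ zH z := by
    intro e
    apply Frame.ex_comm h.b F 0
    rw [← hx₀, e]
    exact (h.b.zc _).symm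
  have hx't : x₀.1 * t₀.1 = t₀.1 * x₀.1 := congrArg Subtype.val hxt
  let a : LL t₀ := ⟨x₀.1, mem_HH.2 hx't⟩
  have ha : a ∈ setA z t₀ := h.Qz x₀ hxQ hxx hx1
  have hzx : zH z * x₀ ∈ Q := Q.mul_mem h.b.zQ hxQ
  have hzxx : (zH z * x₀) * (zH z * x₀) = 1 := by
    calc (zH z * x₀) * (zH z * x₀) = zH z * (x₀ * zH z) * x₀ := by group
      _ = zH z * (zH z * x₀) * x₀ := by rw [h.b.zc]
      _ = (zH z * zH z) * (x₀ * x₀) := by group
      _ = 1 := by rw [h.b.z2, hxx, one_mul]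
  have hzx1 : zH z * x₀ ≠ 1 := by
    intro e
    apply hxz
    have e2 : zH z * x₀ = zH z * zH z := by rw [e, h.b.z2]
    exact mul_left_cancel e2
  have hzxA : bL t₀ * a ∈ setA z t₀ := h.Qz _ hzx hzxx hzx1
  refine ⟨a, ha, ?_, ?_, hzxA, ?_, ?_⟩
  · intro e
    have e' : x₀.1 = z := congrArg (fun w : LL t₀ => w.1) e
    exact hxz (Subtype.ext e')
  · apply Subtype.ext
    exact mem_HH.1 x₀.2
  · intro c hc hcb
    have hcz : c.1 * z = z * c.1 := congrArg Subtype.val hcb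
    let c₀ : HH z := ⟨c.1, mem_HH.2 hcz⟩
    have hc₀Q : c₀ ∈ Q := h.memQ hc
    have hc₀t : c₀ * t₀ = t₀ * c₀ := by
      apply Subtype.ext
      exact mem_HH.1 c.2
    rcases Frame.cQ h.b F hc₀Q hc₀t with e | e | e | e
    · exfalso
      exact zconj_ne hc h.z1 (congrArg Subtype.val e)
    · left
      apply Subtype.ext
      exact congrArg (fun w : HH z => w.1) e
    · right; left
      apply Subtype.ext
      exact congrArg (fun w : HH z => w.1) e
    · right; right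
      apply Subtype.ext
      exact congrArg (fun w : HH z => w.1) e
  · intro g hg
    have hgz : g.1 * z = z * g.1 := congrArg Subtype.val hg
    let g₀ : HH z := ⟨g.1, mem_HH.2 hgz⟩
    have hg₀t : g₀ * t₀ = t₀ * g₀ := by
      apply Subtype.ext
      exact mem_HH.1 g.2
    have := Frame.E_comm h.b F hg₀t
    apply Subtype.ext
    exact congrArg (fun w : HH z => w.1) this

/-- The main structure. -/
theorem ct [Finite G] (h : TC z t₀ Q) : CT (setA z t₀) (tL t₀) := by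
  have htL : tL t₀ * tL t₀ = 1 := Subtype.ext h.tt'
  have ht1 : tL t₀ ≠ 1 := fun e => h.t1 (congrArg Subtype.val e)
  have htc : ∀ g : LL t₀, Commute g (tL t₀) := fun g => Subtype.ext (mem_HH.1 g.2)
  have htA : tL t₀ ∉ setA z t₀ := fun e => h.zt e
  obtain ⟨a, ha, hne, hc, hm, hall, hcomm⟩ := h.setA_line
  apply CT.of_base (b := bL t₀) htL ht1 htc htA h.setA_sq setA_conj h.bL_mem h.setA_trans h.setA_card
    ⟨a, ha, hne, hc, hm, hall⟩
  intro g hg v hv hvb
  rcases hall v hv hvb with e | e | e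
  · rw [e]; exact hg
  · rw [e]; exact hcomm g hg
  · rw [e]; exact hg.mul_right (hcomm g hg)

/-- The order of the centralizer of the second involution. -/
theorem card_L [Finite G] (h : TC z t₀ Q) : Nat.card (LL t₀) = Nat.card (setA z t₀) * 16 := by
  have e := orbit_card (⊤ : Subgroup (LL t₀)) (bL t₀) (setA z t₀)
    (fun g _ => setA_conj _ h.bL_mem g) (fun y hy => by
      obtain ⟨g, hg⟩ := h.setA_trans y hy
      exact ⟨g, Subgroup.mem_top g, hg⟩)
  rw [top_inf_eq, h.setA_card, Subgroup.card_top] at e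
  exact e.symm

/-- The second count. -/
theorem count_t [Finite G] (h : TC z t₀ Q) :
    Nat.card {p : G × G // IsConj z p.1 ∧ IsConj t₀.1 p.2 ∧ t₀.1 ∈ Subgroup.zpowers (p.1 * p.2)}
      = Nat.card (setA z t₀) * (Nat.card (setA z t₀) - 2) := by
  have hct := h.ct
  rw [← hct.card_pairs]
  symm
  have hinto : ∀ p : {p : LL t₀ × LL t₀ // p.1 ∈ setA z t₀ ∧ p.2 ∈ setA z t₀ ∧
      (p.2 = p.1 ∨ ¬ Commute p.1 p.2)},
      IsConj z p.1.1.1 ∧ IsConj t₀.1 (t₀.1 * p.1.2.1) ∧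
        t₀.1 ∈ Subgroup.zpowers (p.1.1.1 * (t₀.1 * p.1.2.1)) := by
    rintro ⟨⟨a, r⟩, ha, hr, hor⟩
    refine ⟨ha, ?_, ?_⟩
    · -- the product is of the second type
      have hrr : r.1 * r.1 = 1 := zconj_inv hr h.zz
      have htr : t₀.1 * r.1 = r.1 * t₀.1 := (mem_HH.1 r.2).symm
      have hvv : (t₀.1 * r.1) * (t₀.1 * r.1) = 1 := by
        calc (t₀.1 * r.1) * (t₀.1 * r.1) = t₀.1 * (r.1 * t₀.1) * r.1 := by group
          _ = t₀.1 * (t₀.1 * r.1) * r.1 := by rw [htr]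
          _ = (t₀.1 * t₀.1) * (r.1 * r.1) := by group
          _ = 1 := by rw [h.tt', hrr, one_mul]
      have hv1 : t₀.1 * r.1 ≠ 1 := by
        intro e
        apply h.zt
        have e2 : t₀.1 = r.1 := by
          have : t₀.1 * r.1 = r.1 * r.1 := by rw [e, hrr]
          exact mul_right_cancel this
        rw [e2]
        exact hr
      rcases h.all _ hvv hv1 with e | e
      · exfalso
        let v : LL t₀ := ⟨t₀.1 * r.1, (HH t₀.1).mul_mem (tL t₀).2 r.2⟩
        have hv : v ∈ setA z t₀ := e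
        have hne : r ≠ v := by
          intro e3
          apply h.t1
          have e4 : 1 * r.1 = t₀.1 * r.1 := by rw [one_mul]; exact congrArg Subtype.val e3
          exact (mul_right_cancel e4).symm
        have hcm : Commute r v := by
          apply Subtype.ext
          show r.1 * (t₀.1 * r.1) = (t₀.1 * r.1) * r.1
          rw [← mul_assoc, ← htr, mul_assoc]
        have hp := hct.close hr hv hne hcm
        have e5 : r * v = tL t₀ := by
          apply Subtype.ext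
          show r.1 * (t₀.1 * r.1) = t₀.1
          rw [← mul_assoc, ← htr, mul_assoc, hrr, mul_one]
        rw [e5] at hp
        exact h.zt hp
      · exact e
    · have := hct.backward ha hr hor
      obtain ⟨n, hn⟩ := Subgroup.mem_zpowers_iff.1 this
      refine Subgroup.mem_zpowers_iff.2 ⟨n, ?_⟩
      have e := congrArg Subtype.val hn
      simpa [tL, zH] using e
  apply Nat.card_eq_of_bijective
    (fun p : {p : LL t₀ × LL t₀ // p.1 ∈ setA z t₀ ∧ p.2 ∈ setA z t₀ ∧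
      (p.2 = p.1 ∨ ¬ Commute p.1 p.2)} =>
      (⟨(p.1.1.1, t₀.1 * p.1.2.1), hinto p⟩ :
        {p : G × G // IsConj z p.1 ∧ IsConj t₀.1 p.2 ∧ t₀.1 ∈ Subgroup.zpowers (p.1 * p.2)}))
  constructor
  · rintro ⟨⟨a, r⟩, h'⟩ ⟨⟨a', r'⟩, h''⟩ e
    have e1 : (a : G) = a' := congrArg (fun q => q.1.1) e
    have e2 : t₀.1 * (r : G) = t₀.1 * r' := congrArg (fun q => q.1.2) e
    apply Subtype.ext
    apply Prod.ext
    · exact Subtype.ext e1
    · exact Subtype.ext (mul_left_cancel e2)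
  · rintro ⟨⟨u, v⟩, hu, hv, htm⟩
    simp only at hu hv htm
    have huu : u * u = 1 := zconj_inv hu h.zz
    have hov : orderOf v = 2 := by rw [← order_conj hv, h.ot]
    have hvv : v * v = 1 := sq_of_order hov
    obtain ⟨h1, h2⟩ := commute_of_inv huu hvv h.tt' htm
    have huL : u ∈ HH t₀.1 := mem_HH.2 h1
    have hvL : v ∈ HH t₀.1 := mem_HH.2 h2
    let u' : LL t₀ := ⟨u, huL⟩
    let v' : LL t₀ := ⟨v, hvL⟩
    have hu' : u' ∈ setA z t₀ := hu
    have hv'v' : v' * v' = 1 := Subtype.ext hvv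
    have htm' : tL t₀ ∈ Subgroup.zpowers (u' * v') := by
      obtain ⟨n, hn⟩ := Subgroup.mem_zpowers_iff.1 htm
      refine Subgroup.mem_zpowers_iff.2 ⟨n, Subtype.ext ?_⟩
      simpa [tL, zH] using hn
    obtain ⟨hr, hor⟩ := hct.forward hu' hv'v' htm'
    refine ⟨⟨(u', tL t₀ * v'), hu', hr, hor⟩, ?_⟩
    apply Subtype.ext
    apply Prod.ext
    · rfl
    · show t₀.1 * (t₀.1 * v) = v
      rw [← mul_assoc, h.tt', one_mul]

/-- The order formula. -/
theorem order_formula [Finite G] (h : TC z t₀ Q) :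
    Nat.card G = Nat.card (setA z t₀) * 16 * 960 +
      1920 * (Nat.card (setA z t₀) * (Nat.card (setA z t₀) - 2)) := by
  have hf := Cfsg.Agent.Lib.ThompsonOrder.thompson_order_formula z t₀.1 h.oz h.ot h.zt h.all'
  rw [hf, h.count_z, h.count_t]
  have e1 : Nat.card (Subgroup.centralizer ({t₀.1} : Set G)) = Nat.card (setA z t₀) * 16 := h.card_L
  have e2 : Nat.card (Subgroup.centralizer ({z} : Set G)) = 1920 := h.b.card_C
  rw [e1, e2]

end TC


namespace TC

variable {t₀ : HH z}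

/-- The class of `z` is large. -/
theorem large [Finite G] (h : TC z t₀ Q) : 80 ≤ Nat.card {y : G | IsConj z y} := by
  classical
  have hb := h.b
  have hzz := h.zz
  have hz1 := h.z1
  haveI : Fintype (St Q (zH z)) := Fintype.ofFinite _
  have hg : ∀ x : St Q (zH z), ∃ g : G, g * z * g⁻¹ = x.1.1 := fun x =>
    isConj_iff.1 (h.Qz x.1 x.2.1 x.2.2.1 x.2.2.2.1)
  choose g hg using hg
  have hyH : ∀ x : St Q (zH z), (g x)⁻¹ * z * g x ∈ HH z := by
    intro x
    apply mem_HH.2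
    have h1 : Commute x.1.1 z := mem_HH.1 x.1.2
    have h2 := cconj h1 (g x)⁻¹
    have e1 : (g x)⁻¹ * x.1.1 * (g x)⁻¹⁻¹ = z := by
      rw [← hg x]; group
    rw [e1] at h2
    have e2 : (g x)⁻¹ * z * (g x)⁻¹⁻¹ = (g x)⁻¹ * z * g x := by rw [inv_inv]
    rw [e2] at h2
    exact h2.symm
  let y : St Q (zH z) → HH z := fun x => ⟨(g x)⁻¹ * z * g x, hyH x⟩
  have hyconj : ∀ x, IsConj z (y x).1 := fun x => isConj_iff.2 ⟨(g x)⁻¹, by simp [y]⟩
  have hyQ : ∀ x, y x ∈ Q := fun x => h.memQ (hyconj x)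
  have hyy : ∀ x, y x * y x = 1 := fun x => Subtype.ext (zconj_inv (hyconj x) hzz)
  have hy1 : ∀ x, y x ≠ 1 := fun x e => zconj_ne (hyconj x) hz1 (congrArg Subtype.val e)
  have hyz : ∀ x, y x ≠ zH z := by
    intro x e
    have e1 : (g x)⁻¹ * z * g x = z := congrArg Subtype.val e
    apply x.2.2.2.2
    apply Subtype.ext
    rw [← hg x]
    show g x * z * (g x)⁻¹ = z
    conv_lhs => rw [← e1]
    group
  let ys : St Q (zH z) → St Q (zH z) := fun x => ⟨y x, hyQ x, hyy x, hy1 x, hyz x⟩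
  let T : St Q (zH z) → Finset (St Q (zH z)) := fun x =>
    Finset.univ.filter (fun s => ¬ Commute s.1 (y x))
  have hT : ∀ x, 8 ≤ (T x).card := by
    intro x
    have hcomp : (Finset.univ.filter (fun s : St Q (zH z) => Commute s.1 (y x))).card ≤ 2 := by
      have hsub : Finset.univ.filter (fun s : St Q (zH z) => Commute s.1 (y x)) ⊆
          {ys x, zSt hb (ys x)} := by
        intro s hs
        simp only [Finset.mem_filter, Finset.mem_univ, true_and] at hs
        rcases hb.comm_inv_eq (hyQ x) (hyy x) (hy1 x) (hyz x) s.2.1 s.2.2.1 hs.symm.eq with e | e | e | e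
        · exact absurd e s.2.2.2.1
        · exact absurd e s.2.2.2.2
        · simp only [Finset.mem_insert, Finset.mem_singleton]
          left
          exact Subtype.ext e
        · simp only [Finset.mem_insert, Finset.mem_singleton]
          right
          exact Subtype.ext e
      exact (Finset.card_le_card hsub).trans Finset.card_le_two
    have hall := Finset.card_filter_add_card_filter_not (s := (Finset.univ : Finset (St Q (zH z))))
      (fun s : St Q (zH z) => Commute s.1 (y x))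
    have hten : (Finset.univ : Finset (St Q (zH z))).card = 10 := by
      rw [Finset.card_univ, ← Nat.card_eq_fintype_card]
      exact hb.card_st
    show 8 ≤ (Finset.univ.filter (fun s : St Q (zH z) => ¬ Commute s.1 (y x))).card
    omega
  let Φ : (Σ x : St Q (zH z), {s // s ∈ T x}) → {y : G | IsConj z y} := fun q =>
    ⟨g q.1 * q.2.1.1.1 * (g q.1)⁻¹,
      (h.Qz q.2.1.1 q.2.1.2.1 q.2.1.2.2.1 q.2.1.2.2.2.1).trans (isConj_iff.2 ⟨g q.1, rfl⟩)⟩
  have hsq : ∀ q : (Σ x : St Q (zH z), {s // s ∈ T x}),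
      (z * (Φ q).1) * (z * (Φ q).1) = q.1.1.1 := by
    rintro ⟨x, s, hs⟩
    simp only [T, Finset.mem_filter, Finset.mem_univ, true_and] at hs
    have hcm : s.1 * y x = zH z * (y x * s.1) := by
      rcases hb.cm s.1 s.2.1 (y x) (hyQ x) with e | e
      · exact absurd e hs
      · exact e
    have hcm' : s.1.1 * ((g x)⁻¹ * z * g x) = z * (((g x)⁻¹ * z * g x) * s.1.1) :=
      congrArg Subtype.val hcm
    set u := g x * s.1.1 * (g x)⁻¹ with hu
    have huu : u * u = 1 := by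
      have hss : s.1.1 * s.1.1 = 1 := congrArg Subtype.val s.2.2.1
      calc u * u = g x * (s.1.1 * s.1.1) * (g x)⁻¹ := by rw [hu]; group
        _ = 1 := by rw [hss]; group
    have e1 : u * z = x.1.1 * (z * u) := by
      rw [← hg x]
      calc u * z = g x * (s.1.1 * ((g x)⁻¹ * z * g x)) * (g x)⁻¹ := by rw [hu]; group
        _ = g x * (z * (((g x)⁻¹ * z * g x) * s.1.1)) * (g x)⁻¹ := by rw [hcm']
        _ = g x * z * (g x)⁻¹ * (z * u) := by rw [hu]; group
    have hxz : z * x.1.1 = x.1.1 * z := (mem_HH.1 x.1.2).symm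
    show (z * u) * (z * u) = x.1.1
    calc (z * u) * (z * u) = z * (u * z) * u := by group
      _ = z * (x.1.1 * (z * u)) * u := by rw [e1]
      _ = (z * x.1.1) * z * (u * u) := by group
      _ = x.1.1 * (z * z) := by rw [hxz, huu, mul_one, mul_assoc]
      _ = x.1.1 := by rw [hzz, mul_one]
  have hΦ : Function.Injective Φ := by
    intro p q e
    have e1 : p.1.1.1 = q.1.1.1 := by
      rw [← hsq p, ← hsq q, e]
    have e2 : p.1 = q.1 := Subtype.ext (Subtype.ext e1)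
    obtain ⟨x, s⟩ := p
    obtain ⟨x', s'⟩ := q
    simp only at e2
    subst e2
    have e3 : g x * s.1.1.1 * (g x)⁻¹ = g x * s'.1.1.1 * (g x)⁻¹ := congrArg Subtype.val e
    have e4 : s.1.1.1 = s'.1.1.1 := by
      have e5 := mul_right_cancel e3
      exact mul_left_cancel e5
    have e5 : s = s' := Subtype.ext (Subtype.ext (Subtype.ext e4))
    rw [e5]
  have hle := Nat.card_le_card_of_injective Φ hΦ
  have hcard : 80 ≤ Nat.card (Σ x : St Q (zH z), {s // s ∈ T x}) := by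
    rw [Nat.card_sigma]
    have h8 : ∀ x ∈ (Finset.univ : Finset (St Q (zH z))), 8 ≤ Nat.card {s // s ∈ T x} := by
      intro x _
      rw [Nat.card_eq_fintype_card, Fintype.card_coe]
      exact hT x
    have := Finset.card_nsmul_le_sum _ _ 8 h8
    have hten : (Finset.univ : Finset (St Q (zH z))).card = 10 := by
      rw [Finset.card_univ, ← Nat.card_eq_fintype_card]
      exact hb.card_st
    rw [hten] at this
    simpa using this
  omega

/-- The order of a group of this type. -/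
theorem card_G [Finite G] (h : TC z t₀ Q) : Nat.card G = 604800 := by
  have hf := h.order_formula
  rcases h.ct.card_A h.bL_mem with hn | hn
  · exfalso
    rw [hn] at hf
    have e := orbit_card (⊤ : Subgroup G) z {y | IsConj z y}
      (fun g _ => isConj_iff.2 ⟨g, rfl⟩) (fun y hy => by
        obtain ⟨g, hg⟩ := isConj_iff.1 hy
        exact ⟨g, Subgroup.mem_top g, hg⟩)
    have e2 : Nat.card (Subgroup.centralizer ({z} : Set G)) = 1920 := h.b.card_C
    rw [top_inf_eq, e2, Subgroup.card_top, hf] at e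
    have := h.large
    omega
  · rw [hf, hn]

end TC

end Cfsg.Agent.Lib.HJType
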