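import Mathlib
import Cfsg.Agent.Lib.HJType
import Cfsg.Agent.Lib.CITFive
import Cfsg.Agent.Lib.PCore

set_option autoImplicit false
set_option linter.all false

namespace Cfsg.Agent.Lib.HJTypeB

open Cfsg.Agent.Lib.HJBase Cfsg.Agent.Lib.CITFour Cfsg.Agent.Lib.CITFive Cfsg.Agent.Lib.HJType
open Cfsg.Agent.Lib.HJType.TC
open Cfsg.Agent.Lib.PCore
open Cfsg.Agent.S3313 (commute_of_inv order_conj order_two sq_of_order)

/-- Groups of order four and exponent two. -/
theorem iso_E4 {Γ : Type*} [Group Γ] [Finite Γ] (hc : Nat.card Γ = 4) (hexp : ∀ g : Γ, g * g = 1) :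
    Nonempty (Γ ≃* (Multiplicative (ZMod 2) × Multiplicative (ZMod 2))) := by
  classical
  haveI := Fintype.ofFinite Γ
  have hinv : ∀ g : Γ, g⁻¹ = g := fun g => inv_eq_of_mul_eq_one_left (hexp g)
  have hcomm : ∀ a b : Γ, a * b = b * a := by
    intro a b
    have h1 := hinv (a * b)
    rw [mul_inv_rev, hinv, hinv] at h1
    exact h1.symm
  have hcU : (Finset.univ : Finset Γ).card = 4 := by
    rw [Finset.card_univ, ← Nat.card_eq_fintype_card, hc]
  obtain ⟨a, ha⟩ : ∃ a : Γ, a ∉ ({1} : Finset Γ) := by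
    by_contra hne
    push Not at hne
    have : (Finset.univ : Finset Γ) ⊆ {1} := fun x _ => hne x
    have h1 := Finset.card_le_card this
    rw [hcU] at h1
    simp at h1
  obtain ⟨b, hb⟩ : ∃ b : Γ, b ∉ ({1, a} : Finset Γ) := by
    by_contra hne
    push Not at hne
    have : (Finset.univ : Finset Γ) ⊆ {1, a} := fun x _ => hne x
    have h1 := Finset.card_le_card this
    have h2 : ({1, a} : Finset Γ).card ≤ 2 := Finset.card_le_two
    omega
  simp only [Finset.mem_singleton, Finset.mem_insert, not_or] at ha hb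
  have hcases : ∀ x : Multiplicative (ZMod 2), x = 1 ∨ x = Multiplicative.ofAdd 1 := by decide
  have hss : (Multiplicative.ofAdd 1 : Multiplicative (ZMod 2)) * Multiplicative.ofAdd 1 = 1 := by decide
  have hne : (Multiplicative.ofAdd 1 : Multiplicative (ZMod 2)) ≠ 1 := by decide
  let φ : Multiplicative (ZMod 2) → Γ → Γ := fun x g => if x = 1 then 1 else g
  have hφ : ∀ (g : Γ) (x x' : Multiplicative (ZMod 2)), φ (x * x') g = φ x g * φ x' g := by
    intro g x x'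
    rcases hcases x with rfl | rfl <;> rcases hcases x' with rfl | rfl
    · simp [φ]
    · simp [φ]
    · simp [φ]
    · rw [hss]
      simp [φ, hne, hexp]
  let f : (Multiplicative (ZMod 2) × Multiplicative (ZMod 2)) →* Γ :=
    { toFun := fun p => φ p.1 a * φ p.2 b
      map_one' := by simp [φ]
      map_mul' := by
        rintro ⟨x, y⟩ ⟨x', y'⟩
        simp only [Prod.mk_mul_mk]
        rw [hφ, hφ]
        rw [mul_assoc, ← mul_assoc (φ x' a), hcomm (φ x' a) (φ y b)]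
        simp only [mul_assoc] }
  have hinj : Function.Injective f := by
    rw [injective_iff_map_eq_one]
    rintro ⟨x, y⟩ he
    have he' : φ x a * φ y b = 1 := he
    rcases hcases x with rfl | rfl <;> rcases hcases y with rfl | rfl
    · rfl
    · exfalso
      simp [φ, hne] at he'
      exact hb.1 he'
    · exfalso
      simp [φ, hne] at he'
      exact ha he'
    · exfalso
      simp [φ, hne] at he'
      apply hb.2
      have : a * b = a * a := by rw [he', hexp]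
      exact mul_left_cancel this
  have hcard : Nat.card (Multiplicative (ZMod 2) × Multiplicative (ZMod 2)) = Nat.card Γ := by
    rw [hc, Nat.card_prod]
    simp [Nat.card_eq_fintype_card]
  have hbij := (Nat.bijective_iff_injective_and_card f).2 ⟨hinj, hcard⟩
  exact ⟨(MulEquiv.ofBijective f hbij).symm⟩

/-- Elements commuting with an involution of the alternating group of degree five. -/
theorem A5_sq_aux : ∀ a b : alternatingGroup (Fin 5), (a * a ≠ 1 ∨ a = 1 ∨ a * b ≠ b * a) ∨ b * b = 1 := by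
  decide +kernel

theorem A5_sq (a b : alternatingGroup (Fin 5)) (h1 : a * a = 1) (h2 : a ≠ 1) (h3 : a * b = b * a) :
    b * b = 1 := by
  rcases A5_sq_aux a b with (h | h | h) | h
  · exact absurd h1 h
  · exact absurd h h2
  · exact absurd h3 h
  · exact h

variable {G : Type*} [Group G] {z : G} {Q : Subgroup (HH z)} {t₀ : HH z}

namespace TC

/-- The number of points is fifteen. -/
theorem card15 [Finite G] (h : TC z t₀ Q) : Nat.card (setA z t₀) = 15 := by
  have hf := h.order_formula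
  rcases h.ct.card_A h.bL_mem with hn | hn
  · exfalso
    rw [hn] at hf
    have e := orbit_card (⊤ : Subgroup G) z {y | IsConj z y}
      (fun g _ => isConj_iff.2 ⟨g, rfl⟩) (fun y hy => by
        obtain ⟨g, hg⟩ := isConj_iff.1 hy
        exact ⟨g, Subgroup.mem_top g, hg⟩)
    have e2 : Nat.card (Subgroup.centralizer ({z} : Set G)) = 1920 := h.b.card_C
    rw [top_inf_eq, e2, Subgroup.card_top, hf] at e
    have := h.large
    omega
  · exact hn

/-- The central four-subgroup. -/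
abbrev YY (t₀ : HH z) (v₀ : LL t₀) : Subgroup (LL t₀) :=
  Subgroup.centralizer ({bL t₀} : Set (LL t₀)) ⊓ Subgroup.centralizer ({v₀} : Set (LL t₀))

/-- The subgroup generated by the points. -/
abbrev MM (z : G) (t₀ : HH z) : Subgroup (LL t₀) := Subgroup.closure (setA z t₀)

theorem mem_YY {v₀ y : LL t₀} : y ∈ YY t₀ v₀ ↔ Commute y (bL t₀) ∧ Commute y v₀ := by
  rw [YY, Subgroup.mem_inf, Subgroup.mem_centralizer_singleton_iff,
    Subgroup.mem_centralizer_singleton_iff]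
  rfl

variable [Finite G] (h : TC z t₀ Q) {v₀ : LL t₀} (hv₀ : v₀ ∈ setA z t₀) (hn : ¬ Commute (bL t₀) v₀)

include h hv₀ hn

theorem Y_central {y : LL t₀} (hy : y ∈ YY t₀ v₀) (g : LL t₀) : Commute y g := by
  have := mem_YY.1 hy
  exact Y_center h.ct h.bL_mem hv₀ hn this.1 this.2 g

theorem Y_M {y : LL t₀} (hy : y ∈ YY t₀ v₀) (hm : y ∈ MM z t₀) : y = 1 := by
  have := mem_YY.1 hy
  exact closure_Y h.ct (card15 h) h.bL_mem hv₀ hn this.1 this.2 hm

theorem card_YY : Nat.card (YY t₀ v₀) = 4 := card_Y h.ct h.bL_mem hv₀ hn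

/-- Elements of the central four-subgroup are involutions. -/
theorem Y_sq {y : LL t₀} (hy : y ∈ YY t₀ v₀) : y * y = 1 := by
  classical
  obtain ⟨π, hs, hq⟩ := h.b.iso
  have hy' := mem_YY.1 hy
  have hyz : y.1 * z = z * y.1 := congrArg Subtype.val hy'.1
  let y₀ : HH z := ⟨y.1, mem_HH.2 hyz⟩
  have hyt : y₀ * t₀ = t₀ * y₀ := by
    apply Subtype.ext
    exact mem_HH.1 y.2
  have h1 : π t₀ * π t₀ = 1 := by rw [← map_mul, h.tt, map_one]
  have h2 : π t₀ ≠ 1 := fun e => h.tQ ((hq t₀).1 e)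
  have h3 : π t₀ * π y₀ = π y₀ * π t₀ := by rw [← map_mul, ← map_mul, hyt]
  have h4 : π y₀ * π y₀ = 1 := A5_sq _ _ h1 h2 h3
  have h5 : y₀ * y₀ ∈ Q := by
    rw [← hq, map_mul, h4]
  have h6 : (y₀ * y₀) * t₀ = t₀ * (y₀ * y₀) := by
    have : Commute y₀ t₀ := hyt
    exact (this.mul_left this)
  obtain ⟨u, F⟩ := h.b.frame_exists h.tt h.tQ
  have hsqY : y * y ∈ YY t₀ v₀ := (YY t₀ v₀).mul_mem hy hy
  -- it is a point or trivial
  by_contra hne
  have hne' : y₀ * y₀ ≠ 1 := by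
    intro e
    apply hne
    apply Subtype.ext
    exact congrArg (fun w : HH z => w.1) e
  have hpt : (y * y) ∈ setA z t₀ := by
    apply h.Qz (y₀ * y₀) h5 ?_ hne'
    -- the square is an involution
    rcases h.b.sq (y₀ * y₀) h5 with e | e
    · exact e
    · exfalso
      -- the square of the square equals `z`: then `z` would be in the four-subgroup
      have e1 : (y * y) * (y * y) = bL t₀ := by
        apply Subtype.ext
        exact congrArg (fun w : HH z => w.1) e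
      have hz : bL t₀ ∈ YY t₀ v₀ := by
        rw [← e1]
        exact (YY t₀ v₀).mul_mem hsqY hsqY
      exact hn (mem_YY.1 hz).2
  have hm : y * y ∈ MM z t₀ := Subgroup.subset_closure hpt
  exact hne (Y_M h hv₀ hn hsqY hm)

/-- The decomposition. -/
theorem L_iso : Nonempty (LL t₀ ≃* (Multiplicative (ZMod 2) × Multiplicative (ZMod 2)) × alternatingGroup (Fin 5)) := by
  obtain ⟨e1⟩ := iso_E4 (Γ := YY t₀ v₀) (card_YY h hv₀ hn) (fun g => Subtype.ext (Y_sq h hv₀ hn g.2))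
  obtain ⟨e2⟩ := M_alt h.ct (card15 h) h.bL_mem
  let f : YY t₀ v₀ × MM z t₀ →* LL t₀ :=
    { toFun := fun p => p.1.1 * p.2.1
      map_one' := by simp
      map_mul' := by
        rintro ⟨a, b⟩ ⟨a', b'⟩
        show (a.1 * a'.1) * (b.1 * b'.1) = (a.1 * b.1) * (a'.1 * b'.1)
        have := Y_central h hv₀ hn a'.2 b.1
        calc (a.1 * a'.1) * (b.1 * b'.1) = a.1 * (a'.1 * b.1) * b'.1 := by group
          _ = a.1 * (b.1 * a'.1) * b'.1 := by rw [this.eq]
          _ = (a.1 * b.1) * (a'.1 * b'.1) := by group }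
  have hbij : Function.Bijective f := by
    constructor
    · rw [injective_iff_map_eq_one]
      rintro ⟨a, b⟩ he
      have he' : a.1 * b.1 = 1 := he
      have hb : b.1 = a.1⁻¹ := eq_inv_of_mul_eq_one_right he'
      have h1 : a.1⁻¹ ∈ MM z t₀ := hb ▸ b.2
      have h2 : a.1⁻¹ ∈ YY t₀ v₀ := (YY t₀ v₀).inv_mem a.2
      have h3 := Y_M h hv₀ hn h2 h1
      have h4 : a = 1 := Subtype.ext (inv_eq_one.1 h3)
      have h5 : b = 1 := by
        apply Subtype.ext
        rw [hb, h3]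
        rfl
      rw [h4, h5]
      rfl
    · intro g
      obtain ⟨y, m, h1, h2, h3, rfl⟩ := decomp h.ct (card15 h) h.bL_mem hv₀ hn g
      exact ⟨(⟨y, mem_YY.2 ⟨h1, h2⟩⟩, ⟨m, h3⟩), rfl⟩
  exact ⟨(MulEquiv.ofBijective f hbij).symm.trans (e1.prodCongr e2)⟩

/-- The 2-core. -/
theorem core_eq : Cfsg.pCore 2 (LL t₀) = YY t₀ v₀ := by
  haveI : Fact (Nat.Prime 2) := ⟨Nat.prime_two⟩
  obtain ⟨e2⟩ := M_alt h.ct (card15 h) h.bL_mem
  apply le_antisymm
  · intro g hg
    obtain ⟨y, m, h1, h2, h3, rfl⟩ := decomp h.ct (card15 h) h.bL_mem hv₀ hn g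
    have hy : y ∈ YY t₀ v₀ := mem_YY.2 ⟨h1, h2⟩
    have hYnorm : (YY t₀ v₀).Normal := by
      constructor
      intro n hn' g
      rw [conj_eq_of_comm (Y_central h hv₀ hn hn' g).symm]
      exact hn'
    have hYp : IsPGroup 2 (YY t₀ v₀) := IsPGroup.of_card (n := 2) (by rw [card_YY h hv₀ hn]; norm_num)
    have hYle : YY t₀ v₀ ≤ Cfsg.pCore 2 (LL t₀) := le_pCore hYnorm hYp
    have hmc : m ∈ Cfsg.pCore 2 (LL t₀) := by
      have : m = y⁻¹ * (y * m) := by group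
      rw [this]
      exact Subgroup.mul_mem _ (Subgroup.inv_mem _ (hYle hy)) hg
    -- the intersection with the simple group is trivial
    have hS : IsSimpleGroup (MM z t₀) := e2.isSimpleGroup
    have hN : ((Cfsg.pCore 2 (LL t₀)).subgroupOf (MM z t₀)).Normal := Subgroup.Normal.subgroupOf inferInstance _
    have hm1 : m = 1 := by
      rcases hN.eq_bot_or_eq_top with hb | ht
      · have : (⟨m, h3⟩ : MM z t₀) ∈ (Cfsg.pCore 2 (LL t₀)).subgroupOf (MM z t₀) := hmc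
        rw [hb, Subgroup.mem_bot] at this
        exact congrArg Subtype.val this
      · exfalso
        -- then the simple group would be a 2-group
        have hle : MM z t₀ ≤ Cfsg.pCore 2 (LL t₀) := by
          intro x hx
          have : (⟨x, hx⟩ : MM z t₀) ∈ (Cfsg.pCore 2 (LL t₀)).subgroupOf (MM z t₀) := by rw [ht]; trivial
          exact this
        have hp2 : IsPGroup 2 (MM z t₀) := (isPGroup_pCore 2).to_le hle
        obtain ⟨k, hk⟩ := IsPGroup.iff_card.1 hp2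
        rw [card_M h.ct (card15 h) h.bL_mem] at hk
        have h3' : 3 ∣ 2 ^ k := by
          rw [← hk]; norm_num
        have := Nat.Prime.dvd_of_dvd_pow (by norm_num : Nat.Prime 3) h3'
        omega
    rw [hm1, mul_one]
    exact hy
  · apply le_pCore
    · constructor
      intro n hn' g
      rw [conj_eq_of_comm (Y_central h hv₀ hn hn' g).symm]
      exact hn'
    · exact IsPGroup.of_card (n := 2) (by rw [card_YY h hv₀ hn]; norm_num)

/-- The central subgroup in the ambient group. -/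
abbrev Yg (t₀ : HH z) (v₀ : LL t₀) : Subgroup G := (YY t₀ v₀).map (HH t₀.1).subtype

/-- The generated subgroup in the ambient group. -/
abbrev Mg (z : G) (t₀ : HH z) : Subgroup G := (MM z t₀).map (HH t₀.1).subtype

/-- The normalizer in the ambient group. -/
abbrev Ng (t₀ : HH z) (v₀ : LL t₀) : Subgroup G :=
  Subgroup.normalizer ((Yg t₀ v₀ : Subgroup G) : Set G)

omit h hv₀ hn in
theorem mem_Yg_of {y : G} (hy : y ∈ HH t₀.1) (hyY : (⟨y, hy⟩ : LL t₀) ∈ YY t₀ v₀) : y ∈ Yg t₀ v₀ :=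
  ⟨⟨y, hy⟩, hyY, rfl⟩

theorem mem_Yg' {y : G} : y ∈ Yg t₀ v₀ ↔ y ∈ HH t₀.1 ∧ ∀ l ∈ HH t₀.1, Commute y l := by
  constructor
  · rintro ⟨y', hy', rfl⟩
    refine ⟨y'.2, fun l hl => ?_⟩
    have := Y_central h hv₀ hn hy' ⟨l, hl⟩
    exact congrArg Subtype.val this
  · rintro ⟨hy, hl⟩
    refine mem_Yg_of hy (mem_YY.2 ⟨?_, ?_⟩)
    · exact Subtype.ext (hl _ (bL t₀).2)
    · exact Subtype.ext (hl _ v₀.2)

theorem t_mem : t₀.1 ∈ Yg t₀ v₀ := by
  rw [mem_Yg' h hv₀ hn]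
  refine ⟨mem_HH.2 rfl, fun l hl => (mem_HH.1 hl).symm⟩

theorem HH_eq {y : G} (hy : y ∈ Yg t₀ v₀) (hy1 : y ≠ 1) : HH y = HH t₀.1 := by
  obtain ⟨hyL, hyc⟩ := (mem_Yg' h hv₀ hn).1 hy
  obtain ⟨y', hy', rfl⟩ := hy
  have hyy : y'.1 * y'.1 = 1 := congrArg Subtype.val (Y_sq h hv₀ hn hy')
  have hconj : IsConj t₀.1 y'.1 := by
    rcases h.all y'.1 hyy hy1 with e | e
    · exfalso
      have hA : y' ∈ setA z t₀ := e
      have := Y_M h hv₀ hn hy' (Subgroup.subset_closure hA)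
      exact hy1 (congrArg Subtype.val this)
    · exact e
  obtain ⟨c, hc⟩ := isConj_iff.1 hconj
  symm
  apply Subgroup.eq_of_le_of_card_ge
  · intro l hl
    exact mem_HH.2 (hyc l hl).symm
  · have := card_centralizer_conj c t₀.1
    rw [hc] at this
    exact this.le

theorem mem_N {g : G} : g ∈ Ng t₀ v₀ ↔ ∀ l, l ∈ HH t₀.1 ↔ g * l * g⁻¹ ∈ HH t₀.1 := by
  have hkey : ∀ l c : G, c ∈ HH l ↔ g * c * g⁻¹ ∈ HH (g * l * g⁻¹) := by
    intro l c
    rw [mem_HH, mem_HH]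
    constructor
    · intro e
      exact cconj (a := c) (b := l) e g
    · intro e
      have := cconj (a := g * c * g⁻¹) (b := g * l * g⁻¹) e g⁻¹
      have e1 : ∀ w : G, g⁻¹ * (g * w * g⁻¹) * g⁻¹⁻¹ = w := fun w => by group
      rw [e1, e1] at this
      exact this
  constructor
  · intro hg l
    have hy : g * t₀.1 * g⁻¹ ∈ Yg t₀ v₀ := (Subgroup.mem_normalizer_iff.1 hg _).1 (t_mem h hv₀ hn)
    have hy1 : g * t₀.1 * g⁻¹ ≠ 1 := by
      intro e
      apply h.t1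
      have : t₀.1 = g⁻¹ * (g * t₀.1 * g⁻¹) * g := by group
      rw [this, e]
      group
    have := HH_eq h hv₀ hn hy hy1
    rw [hkey t₀.1 l, this]
  · intro hg
    rw [Subgroup.mem_normalizer_iff]
    intro y
    constructor
    · intro hy
      obtain ⟨hyL, hyc⟩ := (mem_Yg' h hv₀ hn).1 hy
      rw [mem_Yg' h hv₀ hn]
      refine ⟨(hg y).1 hyL, fun l hl => ?_⟩
      have h1 : g⁻¹ * l * g ∈ HH t₀.1 := by
        rw [hg]
        have e : g * (g⁻¹ * l * g) * g⁻¹ = l := by group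
        rwa [e]
      have h2 := cconj (hyc _ h1) g
      have e : g * (g⁻¹ * l * g) * g⁻¹ = l := by group
      rwa [e] at h2
    · intro hy
      obtain ⟨hyL, hyc⟩ := (mem_Yg' h hv₀ hn).1 hy
      rw [mem_Yg' h hv₀ hn]
      refine ⟨(hg y).2 hyL, fun l hl => ?_⟩
      have h2 := hyc _ ((hg l).1 hl)
      have h3 := cconj h2 g⁻¹
      have e1 : ∀ w : G, g⁻¹ * (g * w * g⁻¹) * g⁻¹⁻¹ = w := fun w => by group
      rwa [e1, e1] at h3

theorem L_le_N : HH t₀.1 ≤ Ng t₀ v₀ := by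
  intro g hg
  rw [mem_N h hv₀ hn]
  intro l
  constructor
  · intro hl
    exact Subgroup.mul_mem _ (Subgroup.mul_mem _ hg hl) (Subgroup.inv_mem _ hg)
  · intro hl
    have e : l = g⁻¹ * (g * l * g⁻¹) * g := by group
    rw [e]
    exact Subgroup.mul_mem _ (Subgroup.mul_mem _ (Subgroup.inv_mem _ hg) hl) hg

theorem card_Yg : Nat.card (Yg t₀ v₀) = 4 := by
  rw [Subgroup.card_map_of_injective Subtype.val_injective]
  exact card_YY h hv₀ hn

/-- The nontrivial elements of the central subgroup. -/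
abbrev Ys (t₀ : HH z) (v₀ : LL t₀) : Set G := {y | y ∈ Yg t₀ v₀ ∧ y ≠ 1}

theorem card_Ys : Nat.card (Ys t₀ v₀) = 3 := by
  have e : Ys t₀ v₀ = ((Yg t₀ v₀ : Subgroup G) : Set G) \ {1} := by
    ext y
    simp [Ys]
  rw [Nat.card_coe_set_eq, e, Set.ncard_diff_singleton_of_mem (Subgroup.one_mem _),
    ← Nat.card_coe_set_eq]
  show Nat.card (Yg t₀ v₀) - 1 = 3
  rw [card_Yg h hv₀ hn]

theorem card_LG : Nat.card (HH t₀.1) = 240 := card_Λ h.ct (card15 h) h.bL_mem

theorem card_N : Nat.card (Ng t₀ v₀) = 720 := by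
  have e := orbit_card (Ng t₀ v₀) t₀.1 (Ys t₀ v₀)
    (fun g hg => by
      refine ⟨(Subgroup.mem_normalizer_iff.1 hg _).1 (t_mem h hv₀ hn), ?_⟩
      intro e
      apply h.t1
      have : t₀.1 = g⁻¹ * (g * t₀.1 * g⁻¹) * g := by group
      rw [this, e]
      group)
    (fun y hy => by
      have hyy : y * y = 1 := by
        obtain ⟨y', hy', rfl⟩ := hy.1
        exact congrArg Subtype.val (Y_sq h hv₀ hn hy')
      have hconj : IsConj t₀.1 y := by
        rcases h.all y hyy hy.2 with e | e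
        · exfalso
          obtain ⟨y', hy', rfl⟩ := hy.1
          have hA : y' ∈ setA z t₀ := e
          have := Y_M h hv₀ hn hy' (Subgroup.subset_closure hA)
          exact hy.2 (congrArg Subtype.val this)
        · exact e
      obtain ⟨c, hc⟩ := isConj_iff.1 hconj
      refine ⟨c, ?_, hc⟩
      rw [mem_N h hv₀ hn]
      intro l
      have := HH_eq h hv₀ hn hy.1 hy.2
      rw [← hc] at this
      rw [mem_HH, ← this, mem_HH]
      constructor
      · intro e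
        exact cconj (a := l) (b := t₀.1) e c
      · intro e
        have h3 := cconj (a := c * l * c⁻¹) (b := c * t₀.1 * c⁻¹) e c⁻¹
        have e1 : ∀ w : G, c⁻¹ * (c * w * c⁻¹) * c⁻¹⁻¹ = w := fun w => by group
        rwa [e1, e1] at h3)
  have hinf : Ng t₀ v₀ ⊓ Subgroup.centralizer ({t₀.1} : Set G) = HH t₀.1 :=
    inf_eq_right.2 (L_le_N h hv₀ hn)
  rw [hinf, card_Ys h hv₀ hn, card_LG h hv₀ hn] at e
  omega

/-- The points in the ambient group. -/
abbrev Ag (z : G) (t₀ : HH z) : Set G := {u | u ∈ HH t₀.1 ∧ IsConj z u}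

theorem card_Ag : Nat.card (Ag z t₀) = 15 := by
  rw [← card15 h]
  apply Nat.card_congr
  exact ⟨fun u => ⟨⟨u.1, u.2.1⟩, u.2.2⟩, fun u => ⟨u.1.1, u.1.2, u.2⟩, fun _ => rfl, fun _ => rfl⟩

/-- An element of order three in the normalizer centralizing the base point, outside the centralizer. -/
theorem exists_sigma : ∃ σ : G, σ ∈ Ng t₀ v₀ ∧ Commute σ z ∧ σ ^ 3 = 1 ∧ σ ≠ 1 ∧ σ ∉ HH t₀.1 := by
  have e := orbit_card (Ng t₀ v₀) z (Ag z t₀)
    (fun g hg => ⟨(mem_N h hv₀ hn).1 hg z |>.1 (bL t₀).2, isConj_iff.2 ⟨g, rfl⟩⟩)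
    (fun y hy => by
      obtain ⟨g, hg⟩ := setA_trans h ⟨y, hy.1⟩ hy.2
      refine ⟨g.1, L_le_N h hv₀ hn g.2, ?_⟩
      exact congrArg Subtype.val hg)
  rw [card_Ag h hv₀ hn, card_N h hv₀ hn] at e
  have hc48 : Nat.card ↥(Ng t₀ v₀ ⊓ Subgroup.centralizer ({z} : Set G)) = 48 := by omega
  haveI : Fact (Nat.Prime 3) := ⟨by norm_num⟩
  obtain ⟨x, hx⟩ := exists_prime_orderOf_dvd_card' (G := ↥(Ng t₀ v₀ ⊓ Subgroup.centralizer ({z} : Set G))) 3
    (by rw [hc48]; norm_num)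
  have ho : orderOf x.1 = 3 := (Subgroup.orderOf_coe x).trans hx
  have h3 : x.1 ^ 3 = 1 := by rw [← ho]; exact pow_orderOf_eq_one _
  have h1 : x.1 ≠ 1 := by
    intro e
    rw [e] at ho
    simp at ho
  have hxz : Commute x.1 z := by
    have := x.2.2
    exact mem_HH.1 this
  refine ⟨x.1, x.2.1, hxz, h3, h1, ?_⟩
  intro hxL
  have hc : Commute (⟨x.1, hxL⟩ : LL t₀) (bL t₀) := Subtype.ext hxz
  have h16 := CT.pow16 h.ct h.bL_mem hc
  have h16' : x.1 ^ 16 = 1 := congrArg Subtype.val h16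
  apply h1
  calc x.1 = x.1 ^ 16 * ((x.1 ^ 3) ^ 5)⁻¹ := by group
    _ = 1 := by rw [h16', h3]; simp

/-- The conjugation endomorphism of the centralizer. -/
def sHom {g : G} (hg : g ∈ Ng t₀ v₀) : LL t₀ →* LL t₀ :=
  { toFun := fun u => ⟨g * u.1 * g⁻¹, ((mem_N h hv₀ hn).1 hg u.1).1 u.2⟩
    map_one' := by
      apply Subtype.ext
      simp
    map_mul' := by
      intro a b
      apply Subtype.ext
      show g * (a.1 * b.1) * g⁻¹ = (g * a.1 * g⁻¹) * (g * b.1 * g⁻¹)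
      group }

theorem sHom_val {g : G} (hg : g ∈ Ng t₀ v₀) (u : LL t₀) :
    (sHom h hv₀ hn hg u).1 = g * u.1 * g⁻¹ := rfl

/-- Elements of period three commuting with the base point centralize the generated subgroup. -/
theorem sigma_M {σ : G} (hσ : σ ∈ Ng t₀ v₀) (hz : Commute σ z) (h3 : σ ^ 3 = 1) {m : G}
    (hm : m ∈ Mg z t₀) : Commute σ m := by
  obtain ⟨m', hm', rfl⟩ := hm
  have key := aut_three h.ct (card15 h) (sHom h hv₀ hn hσ) ?_ ?_ h.bL_mem ?_ m' hm'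
  · exact comm_of_conj_eq (congrArg Subtype.val key)
  · intro x
    apply Subtype.ext
    simp only [sHom_val]
    have e3 : σ ^ 3 = σ * σ * σ := by rw [pow_succ, pow_succ, pow_one]
    have e : σ * (σ * (σ * x.1 * σ⁻¹) * σ⁻¹) * σ⁻¹ = σ ^ 3 * x.1 * (σ ^ 3)⁻¹ := by
      rw [e3]
      group
    rw [e, h3]
    simp
  · intro u hu
    exact IsConj.trans hu (isConj_iff.2 ⟨σ, rfl⟩)
  · apply Subtype.ext
    exact conj_eq_of_comm hz

/-- The part of the normalizer centralizing the generated subgroup. -/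
abbrev Dg (z : G) (t₀ : HH z) (v₀ : LL t₀) : Subgroup G :=
  Ng t₀ v₀ ⊓ Subgroup.centralizer ((Mg z t₀ : Subgroup G) : Set G)

omit h hv₀ hn in
theorem mem_Dg {g : G} : g ∈ Dg z t₀ v₀ ↔ g ∈ Ng t₀ v₀ ∧ ∀ m ∈ Mg z t₀, Commute g m := by
  rw [Subgroup.mem_inf, Subgroup.mem_centralizer_iff]
  exact and_congr_right fun _ => forall₂_congr fun m _ => ⟨fun e => e.symm, fun e => e.symm⟩

theorem z_mem_Mg : z ∈ Mg z t₀ := ⟨bL t₀, Subgroup.subset_closure h.bL_mem, rfl⟩

theorem v_mem_Mg : v₀.1 ∈ Mg z t₀ := ⟨v₀, Subgroup.subset_closure hv₀, rfl⟩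

theorem Y_le_D : Yg t₀ v₀ ≤ Dg z t₀ v₀ := by
  intro y hy
  rw [mem_Dg]
  obtain ⟨hyL, hyc⟩ := (mem_Yg' h hv₀ hn).1 hy
  refine ⟨L_le_N h hv₀ hn hyL, ?_⟩
  rintro _ ⟨m, -, rfl⟩
  exact hyc _ m.2

theorem D_inf : Dg z t₀ v₀ ⊓ Subgroup.centralizer ({t₀.1} : Set G) = Yg t₀ v₀ := by
  apply le_antisymm
  · rintro g ⟨hg, hgL⟩
    have hg' := (mem_Dg.1 hg).2
    refine mem_Yg_of hgL (mem_YY.2 ⟨?_, ?_⟩)
    · exact Subtype.ext (hg' _ (z_mem_Mg h hv₀ hn))
    · exact Subtype.ext (hg' _ (v_mem_Mg h hv₀ hn))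
  · intro y hy
    exact ⟨Y_le_D h hv₀ hn hy, ((mem_Yg' h hv₀ hn).1 hy).1⟩

theorem card_D : Nat.card (Dg z t₀ v₀) = 12 := by
  obtain ⟨σ, hσ, hσz, h3, h1, hσL⟩ := exists_sigma h hv₀ hn
  have hσD : σ ∈ Dg z t₀ v₀ := mem_Dg.2 ⟨hσ, fun m hm => sigma_M h hv₀ hn hσ hσz h3 hm⟩
  have ht := t_mem h hv₀ hn
  have hne1 : σ * t₀.1 * σ⁻¹ ≠ t₀.1 := by
    intro e
    exact hσL (mem_HH.2 (comm_of_conj_eq e))
  -- the three elements
  have hin : ∀ g ∈ Dg z t₀ v₀, g * t₀.1 * g⁻¹ ∈ Ys t₀ v₀ := by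
    intro g hg
    refine ⟨(Subgroup.mem_normalizer_iff.1 (mem_Dg.1 hg).1 _).1 ht, ?_⟩
    intro e
    apply h.t1
    have : t₀.1 = g⁻¹ * (g * t₀.1 * g⁻¹) * g := by group
    rw [this, e]
    group
  have hσ2 : (σ * σ) * t₀.1 * (σ * σ)⁻¹ = σ * (σ * t₀.1 * σ⁻¹) * σ⁻¹ := by group
  have hne2 : (σ * σ) * t₀.1 * (σ * σ)⁻¹ ≠ t₀.1 := by
    intro e
    apply hne1
    have e3 : σ ^ 3 * t₀.1 * (σ ^ 3)⁻¹ = t₀.1 := by
      rw [h3]
      simp
    have e5 : σ ^ 3 = σ * σ * σ := by rw [pow_succ, pow_succ, pow_one]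
    have e4 : σ ^ 3 * t₀.1 * (σ ^ 3)⁻¹ = σ * ((σ * σ) * t₀.1 * (σ * σ)⁻¹) * σ⁻¹ := by
      rw [e5]
      group
    rw [e4, e] at e3
    exact e3
  have hne3 : (σ * σ) * t₀.1 * (σ * σ)⁻¹ ≠ σ * t₀.1 * σ⁻¹ := by
    intro e
    apply hne1
    rw [hσ2] at e
    have : σ⁻¹ * (σ * (σ * t₀.1 * σ⁻¹) * σ⁻¹) * σ = σ⁻¹ * (σ * t₀.1 * σ⁻¹) * σ := by rw [e]
    have e1 : σ⁻¹ * (σ * (σ * t₀.1 * σ⁻¹) * σ⁻¹) * σ = σ * t₀.1 * σ⁻¹ := by group
    have e2 : σ⁻¹ * (σ * t₀.1 * σ⁻¹) * σ = t₀.1 := by group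
    rwa [e1, e2] at this
  have hthree : ({t₀.1, σ * t₀.1 * σ⁻¹, (σ * σ) * t₀.1 * (σ * σ)⁻¹} : Set G).ncard = 3 := by
    rw [Set.ncard_eq_three]
    exact ⟨_, _, _, hne1.symm, hne2.symm, hne3.symm, rfl⟩
  have hsub : ({t₀.1, σ * t₀.1 * σ⁻¹, (σ * σ) * t₀.1 * (σ * σ)⁻¹} : Set G) ⊆ Ys t₀ v₀ := by
    rintro y (rfl | rfl | rfl)
    · have := hin 1 (Subgroup.one_mem _)
      simpa using this
    · exact hin σ hσD
    · exact hin (σ * σ) (Subgroup.mul_mem _ hσD hσD)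
  have heq : ({t₀.1, σ * t₀.1 * σ⁻¹, (σ * σ) * t₀.1 * (σ * σ)⁻¹} : Set G) = Ys t₀ v₀ := by
    apply Set.eq_of_subset_of_ncard_le hsub
    rw [hthree, ← Nat.card_coe_set_eq, card_Ys h hv₀ hn]
  have e := orbit_card (Dg z t₀ v₀) t₀.1 (Ys t₀ v₀) hin (fun y hy => by
    rw [← heq] at hy
    rcases hy with rfl | rfl | rfl
    · exact ⟨1, Subgroup.one_mem _, by simp⟩
    · exact ⟨σ, hσD, rfl⟩
    · exact ⟨σ * σ, Subgroup.mul_mem _ hσD hσD, rfl⟩)
  rw [D_inf h hv₀ hn, card_Ys h hv₀ hn, card_Yg h hv₀ hn] at e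
  omega

theorem card_Mg : Nat.card (Mg z t₀) = 60 := by
  rw [Subgroup.card_map_of_injective Subtype.val_injective]
  exact card_M h.ct (card15 h) h.bL_mem

/-- The first factor is the alternating group of degree four. -/
theorem D_iso : Nonempty (Dg z t₀ v₀ ≃* alternatingGroup (Fin 4)) := by
  obtain ⟨σ, hσ, hσz, h3, h1, hσL⟩ := exists_sigma h hv₀ hn
  have hσD : σ ∈ Dg z t₀ v₀ := mem_Dg.2 ⟨hσ, fun m hm => sigma_M h hv₀ hn hσ hσz h3 hm⟩
  haveI : Fact (Nat.Prime 3) := ⟨by norm_num⟩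
  let s : Dg z t₀ v₀ := ⟨σ, hσD⟩
  have hs3 : s ^ 3 = 1 := Subtype.ext h3
  have hs1 : s ≠ 1 := fun e => h1 (congrArg Subtype.val e)
  have hso : orderOf s = 3 := orderOf_eq_prime hs3 hs1
  have hcard : Nat.card (Subgroup.zpowers s) = 3 := by
    rw [Nat.card_zpowers, hso]
  have hidx : (Subgroup.zpowers s).index = 4 := by
    have e := Subgroup.card_mul_index (Subgroup.zpowers s)
    rw [hcard, card_D h hv₀ hn] at e
    omega
  apply iso_alt 4 (by norm_num) (Subgroup.zpowers s) hidx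
  · intro g hg
    -- `g` is a power of `s`
    have hg0 : g ∈ Subgroup.zpowers s := by
      have := hg 1
      simpa using this
    have hg3 : g ^ 3 = 1 := by
      obtain ⟨k, rfl⟩ := Subgroup.mem_zpowers_iff.1 hg0
      rw [← zpow_natCast, ← zpow_mul, mul_comm, zpow_mul, zpow_natCast, hs3, one_zpow]
    by_contra hg1
    have hgo : orderOf g = 3 := orderOf_eq_prime hg3 hg1
    -- it commutes with the central subgroup
    have hgt : Commute g.1 t₀.1 := by
      have htD : t₀.1 ∈ Dg z t₀ v₀ := Y_le_D h hv₀ hn (t_mem h hv₀ hn)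
      let t' : Dg z t₀ v₀ := ⟨t₀.1, htD⟩
      have h2 := hg t'
      -- the commutator lies in both
      have hc : t'⁻¹ * g * t' * g⁻¹ ∈ Subgroup.zpowers s :=
        Subgroup.mul_mem _ h2 (Subgroup.inv_mem _ hg0)
      have hgN : g.1 ∈ Ng t₀ v₀ := (mem_Dg.1 g.2).1
      have hcY : (t'⁻¹ * g * t' * g⁻¹).1 ∈ Yg t₀ v₀ := by
        have e : (t'⁻¹ * g * t' * g⁻¹).1 = t₀.1⁻¹ * (g.1 * t₀.1 * g.1⁻¹) := by
          show t₀.1⁻¹ * g.1 * t₀.1 * g.1⁻¹ = _
          group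
        rw [e]
        exact Subgroup.mul_mem _ (Subgroup.inv_mem _ (t_mem h hv₀ hn))
          ((Subgroup.mem_normalizer_iff.1 hgN _).1 (t_mem h hv₀ hn))
      have hc3 : (t'⁻¹ * g * t' * g⁻¹) ^ 3 = 1 := by
        obtain ⟨k, hk⟩ := Subgroup.mem_zpowers_iff.1 hc
        rw [← hk, ← zpow_natCast, ← zpow_mul, mul_comm, zpow_mul, zpow_natCast, hs3, one_zpow]
      have hc4 : ((t'⁻¹ * g * t' * g⁻¹).1) ^ 4 = 1 := by
        have := pow_card_eq_one' (x := (⟨_, hcY⟩ : Yg t₀ v₀))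
        rw [card_Yg h hv₀ hn] at this
        exact congrArg Subtype.val this
      have hc1 : (t'⁻¹ * g * t' * g⁻¹).1 = 1 := by
        have hc3' : ((t'⁻¹ * g * t' * g⁻¹).1) ^ 3 = 1 := congrArg Subtype.val hc3
        calc (t'⁻¹ * g * t' * g⁻¹).1 = ((t'⁻¹ * g * t' * g⁻¹).1) ^ 4 * (((t'⁻¹ * g * t' * g⁻¹).1) ^ 3)⁻¹ := by group
          _ = 1 := by rw [hc4, hc3']; simp
      have e : t₀.1⁻¹ * g.1 * t₀.1 * g.1⁻¹ = 1 := hc1
      show g.1 * t₀.1 = t₀.1 * g.1
      have e2 : g.1 * t₀.1 * g.1⁻¹ = t₀.1 := by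
        calc g.1 * t₀.1 * g.1⁻¹ = t₀.1 * (t₀.1⁻¹ * g.1 * t₀.1 * g.1⁻¹) := by group
          _ = t₀.1 := by rw [e, mul_one]
      exact comm_of_conj_eq e2
    -- hence so does the generator
    have hs_mem : s ∈ Subgroup.zpowers g := by
      have hle : Subgroup.zpowers g ≤ Subgroup.zpowers s := Subgroup.zpowers_le.2 hg0
      have hceq : Nat.card (Subgroup.zpowers g) = Nat.card (Subgroup.zpowers s) := by
        rw [Nat.card_zpowers, Nat.card_zpowers, hgo, hso]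
      have := Subgroup.eq_of_le_of_card_ge hle hceq.ge
      rw [this]
      exact Subgroup.mem_zpowers s
    obtain ⟨k, hk⟩ := Subgroup.mem_zpowers_iff.1 hs_mem
    apply hσL
    rw [mem_HH]
    have e : σ = g.1 ^ k := by
      have := congrArg Subtype.val hk
      simpa [s] using this.symm
    rw [e]
    exact (hgt.zpow_left k)
  · rw [card_D h hv₀ hn]
    decide

/-- The product decomposition of the normalizer. -/
theorem N_iso : Nonempty (Ng t₀ v₀ ≃* alternatingGroup (Fin 4) × alternatingGroup (Fin 5)) := by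
  obtain ⟨e1⟩ := D_iso h hv₀ hn
  obtain ⟨e2⟩ := M_alt h.ct (card15 h) h.bL_mem
  have hM : ∀ m ∈ Mg z t₀, m ∈ Ng t₀ v₀ := by
    rintro _ ⟨m, -, rfl⟩
    exact L_le_N h hv₀ hn m.2
  let φ : Dg z t₀ v₀ × Mg z t₀ →* Ng t₀ v₀ :=
    { toFun := fun p => ⟨p.1.1 * p.2.1, Subgroup.mul_mem _ (mem_Dg.1 p.1.2).1 (hM _ p.2.2)⟩
      map_one' := by
        apply Subtype.ext
        simp
      map_mul' := by
        rintro ⟨a, b⟩ ⟨a', b'⟩
        apply Subtype.ext
        show (a.1 * a'.1) * (b.1 * b'.1) = (a.1 * b.1) * (a'.1 * b'.1)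
        have := (mem_Dg.1 a'.2).2 b.1 b.2
        calc (a.1 * a'.1) * (b.1 * b'.1) = a.1 * (a'.1 * b.1) * b'.1 := by group
          _ = a.1 * (b.1 * a'.1) * b'.1 := by rw [this.eq]
          _ = (a.1 * b.1) * (a'.1 * b'.1) := by group }
  have hinj : Function.Injective φ := by
    rw [injective_iff_map_eq_one]
    rintro ⟨a, b⟩ he
    have he' : a.1 * b.1 = 1 := congrArg Subtype.val he
    have hb : b.1 = a.1⁻¹ := eq_inv_of_mul_eq_one_right he'
    -- `a⁻¹` lies in both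
    have h1 : a.1⁻¹ ∈ Mg z t₀ := hb ▸ b.2
    have h2 : a.1⁻¹ ∈ Dg z t₀ v₀ := Subgroup.inv_mem _ a.2
    obtain ⟨m, hm, hme⟩ := h1
    have hmY : m ∈ YY t₀ v₀ := by
      refine mem_YY.2 ⟨?_, ?_⟩
      · apply Subtype.ext
        have := (mem_Dg.1 h2).2 _ (z_mem_Mg h hv₀ hn)
        rw [← hme] at this
        exact this
      · apply Subtype.ext
        have := (mem_Dg.1 h2).2 _ (v_mem_Mg h hv₀ hn)
        rw [← hme] at this
        exact this
    have hm1 := Y_M h hv₀ hn hmY hm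
    have h3 : a.1⁻¹ = 1 := by
      rw [← hme, hm1]
      rfl
    have h4 : a = 1 := Subtype.ext (inv_eq_one.1 h3)
    have h5 : b = 1 := by
      apply Subtype.ext
      rw [hb, h3]
      rfl
    rw [h4, h5]
    rfl
  have hcard : Nat.card (Dg z t₀ v₀ × Mg z t₀) = Nat.card (Ng t₀ v₀) := by
    rw [Nat.card_prod, card_D h hv₀ hn, card_Mg h hv₀ hn, card_N h hv₀ hn]
  have hbij := (Nat.bijective_iff_injective_and_card φ).2 ⟨hinj, hcard⟩
  have e3 : Mg z t₀ ≃* alternatingGroup (Fin 5) :=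
    ((MM z t₀).equivMapOfInjective (HH t₀.1).subtype Subtype.val_injective).symm.trans e2
  exact ⟨(MulEquiv.ofBijective φ hbij).symm.trans (e1.prodCongr e3)⟩

end TC

/-- The conclusion for a given involution. -/
def PP (x : G) : Prop :=
  Nonempty (↥(Subgroup.centralizer ({x} : Set G)) ≃* (Multiplicative (ZMod 2) × Multiplicative (ZMod 2)) × alternatingGroup (Fin 5)) ∧
    Nonempty (↥(Subgroup.normalizer (((Cfsg.pCore 2 ↥(Subgroup.centralizer ({x} : Set G))).map (Subgroup.subtype (Subgroup.centralizer ({x} : Set G))) : Subgroup G) : Set G)) ≃* alternatingGroup (Fin 4) × alternatingGroup (Fin 5))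

/-- The conclusion holds for the chosen involution. -/
theorem PP_of_TC [Finite G] (h : TC z t₀ Q) : PP t₀.1 := by
  obtain ⟨v₀, hv₀, hn⟩ := exists_anti h.ct (TC.card15 h) h.bL_mem
  refine ⟨TC.L_iso h hv₀ hn, ?_⟩
  have e := TC.core_eq h hv₀ hn
  have e2 : (Cfsg.pCore 2 ↥(Subgroup.centralizer ({t₀.1} : Set G))).map (Subgroup.subtype (Subgroup.centralizer ({t₀.1} : Set G))) = TC.Yg t₀ v₀ := by
    rw [TC.Yg]
    exact congrArg _ e
  rw [e2]
  exact TC.N_iso h hv₀ hn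

/-- The image of the core under an isomorphism. -/
theorem pCore_map_equiv {Γ Γ' : Type*} [Group Γ] [Group Γ'] [Finite Γ] [Finite Γ'] (β : Γ ≃* Γ') (p : ℕ)
    [Fact p.Prime] : (Cfsg.pCore p Γ).map β.toMonoidHom = Cfsg.pCore p Γ' := by
  apply le_antisymm
  · apply le_pCore
    · exact Subgroup.Normal.map inferInstance β.toMonoidHom β.surjective
    · exact (isPGroup_pCore p).map β.toMonoidHom
  · intro x hx
    have hle : (Cfsg.pCore p Γ').map β.symm.toMonoidHom ≤ Cfsg.pCore p Γ := by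
      apply le_pCore
      · exact Subgroup.Normal.map inferInstance β.symm.toMonoidHom β.symm.surjective
      · exact (isPGroup_pCore p).map β.symm.toMonoidHom
    refine ⟨β.symm x, hle ⟨x, hx, rfl⟩, ?_⟩
    simp

/-- Conjugation invariance of the conclusion. -/
theorem PP_conj [Finite G] {x : G} (c : G) (hP : PP x) : PP (c * x * c⁻¹) := by
  haveI : Fact (Nat.Prime 2) := ⟨Nat.prime_two⟩
  obtain ⟨⟨e1⟩, ⟨e2⟩⟩ := hP
  let f : G ≃* G := MulAut.conj c
  have hf : ∀ g, f g = c * g * c⁻¹ := fun g => rfl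
  have hC : (Subgroup.centralizer ({x} : Set G)).map f.toMonoidHom = Subgroup.centralizer ({c * x * c⁻¹} : Set G) := by
    ext g
    rw [Subgroup.mem_map_equiv, Subgroup.mem_centralizer_singleton_iff, Subgroup.mem_centralizer_singleton_iff]
    have e3 : f.symm g = c⁻¹ * g * c := by
      rw [MulEquiv.symm_apply_eq, hf]
      group
    rw [e3]
    constructor
    · intro e
      have := cconj (a := c⁻¹ * g * c) (b := x) e c
      have e4 : c * (c⁻¹ * g * c) * c⁻¹ = g := by group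
      rwa [e4] at this
    · intro e
      have := cconj (a := g) (b := c * x * c⁻¹) e c⁻¹
      have e4 : c⁻¹ * (c * x * c⁻¹) * c⁻¹⁻¹ = x := by group
      have e5 : c⁻¹ * g * c⁻¹⁻¹ = c⁻¹ * g * c := by group
      rwa [e4, e5] at this
  let β₀ : ↥(Subgroup.centralizer ({x} : Set G)) ≃* ↥((Subgroup.centralizer ({x} : Set G)).map f.toMonoidHom) :=
    f.subgroupMap _
  let β : ↥(Subgroup.centralizer ({x} : Set G)) ≃* ↥(Subgroup.centralizer ({c * x * c⁻¹} : Set G)) :=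
    β₀.trans (MulEquiv.subgroupCongr hC)
  have hβ : ∀ g, (β g).1 = f g.1 := fun g => rfl
  refine ⟨⟨β.symm.trans e1⟩, ?_⟩
  have hW : (Cfsg.pCore 2 ↥(Subgroup.centralizer ({c * x * c⁻¹} : Set G))).map (Subgroup.subtype (Subgroup.centralizer ({c * x * c⁻¹} : Set G)))
      = ((Cfsg.pCore 2 ↥(Subgroup.centralizer ({x} : Set G))).map (Subgroup.subtype (Subgroup.centralizer ({x} : Set G)))).map f.toMonoidHom := by
    rw [← pCore_map_equiv β 2]
    ext g
    constructor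
    · rintro ⟨_, ⟨a, ha, rfl⟩, rfl⟩
      exact ⟨a.1, ⟨a, ha, rfl⟩, rfl⟩
    · rintro ⟨_, ⟨a, ha, rfl⟩, rfl⟩
      exact ⟨β a, ⟨a, ha, rfl⟩, rfl⟩
  rw [hW]
  have hN := Subgroup.map_equiv_normalizer_eq ((Cfsg.pCore 2 ↥(Subgroup.centralizer ({x} : Set G))).map (Subgroup.subtype (Subgroup.centralizer ({x} : Set G)))) f
  let γ₀ := f.subgroupMap (Subgroup.normalizer (((Cfsg.pCore 2 ↥(Subgroup.centralizer ({x} : Set G))).map (Subgroup.subtype (Subgroup.centralizer ({x} : Set G))) : Subgroup G) : Set G))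
  exact ⟨(γ₀.trans (MulEquiv.subgroupCongr hN)).symm.trans e2⟩

/-- The conclusion for every involution not conjugate to the central one. -/
theorem PP_all [Finite G] (h : TC z t₀ Q) {t : G} (ht : orderOf t = 2) (htz : ¬ IsConj t z) : PP t := by
  have htt : t * t = 1 := sq_of_order ht
  obtain ⟨g, hg⟩ := conj_into h.b htt
  let t₁ : HH z := ⟨g * t * g⁻¹, hg⟩
  have hconj : IsConj t t₁.1 := isConj_iff.2 ⟨g, rfl⟩
  have htt₁ : t₁ * t₁ = 1 := by
    apply Subtype.ext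
    show g * t * g⁻¹ * (g * t * g⁻¹) = 1
    calc g * t * g⁻¹ * (g * t * g⁻¹) = g * (t * t) * g⁻¹ := by group
      _ = 1 := by rw [htt]; group
  have hzt : ¬ IsConj z t₁.1 := fun e => htz ((hconj.trans e.symm))
  have ht₁1 : t₁ ≠ 1 := by
    intro e
    have e' : g * t * g⁻¹ = 1 := congrArg Subtype.val e
    apply (orderOf_pos_iff.2 (isOfFinOrder_of_finite t)).ne'
    have : t = 1 := by
      have e2 : t = g⁻¹ * (g * t * g⁻¹) * g := by group
      rw [e2, e']
      group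
    rw [this] at ht
    simp at ht
  have hQ₁ : t₁ ∉ Q := fun hq => hzt (h.Qz t₁ hq htt₁ ht₁1)
  have hT : TC z t₁ Q := by
    refine ⟨h.b, htt₁, hQ₁, h.Qz, hzt, ?_⟩
    intro y hy hy1
    rcases h.all y hy hy1 with e | e
    · exact Or.inl e
    · exact Or.inr ((h.Wt htt₁ hQ₁).symm.trans e)
  have hP := PP_conj g⁻¹ (PP_of_TC hT)
  have e : g⁻¹ * t₁.1 * g⁻¹⁻¹ = t := by
    show g⁻¹ * (g * t * g⁻¹) * g⁻¹⁻¹ = t
    group
  rwa [e] at hP

end Cfsg.Agent.Lib.HJTypeB
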