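import Mathlib
import Cfsg.Agent.Lib.HJTypeB
import Cfsg.Agent.Lib.HJFive

set_option autoImplicit false
set_option linter.all false

namespace Cfsg.Agent.Lib.HJFiveB

open Cfsg.Agent.Lib.HJBase Cfsg.Agent.Lib.CITFour Cfsg.Agent.Lib.CITFive Cfsg.Agent.Lib.HJType
open Cfsg.Agent.Lib.HJTypeB Cfsg.Agent.Lib.HJFive
open Cfsg.Agent.Lib.HJType.TC Cfsg.Agent.Lib.HJTypeB.TC
open Cfsg.Agent.S3313 (commute_of_inv order_conj order_two sq_of_order)

variable {G : Type*} [Group G] [Finite G] {z : G} {Q : Subgroup (HH z)} {t₀ : HH z}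

/-- Sylow 5-subgroups have order 25. -/
theorem card_syl (h : TC z t₀ Q) (P : Sylow 5 G) : Nat.card P = 25 := by
  haveI : Fact (Nat.Prime 5) := ⟨by norm_num⟩
  obtain ⟨k, hk⟩ := IsPGroup.iff_card.1 P.isPGroup'
  have hG := h.card_G
  have hmul := Subgroup.card_mul_index (P : Subgroup G)
  rw [hk, hG] at hmul
  have hidx : ¬ 5 ∣ (P : Subgroup G).index := P.not_dvd_index
  have hk3 : k < 3 := by
    by_contra hne
    have h1 : 5 ^ 3 ∣ 5 ^ k := pow_dvd_pow 5 (by omega)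
    have h2 : 5 ^ k ∣ 604800 := ⟨_, hmul.symm⟩
    have h3 := h1.trans h2
    norm_num at h3
  rw [hk]
  interval_cases k
  · exfalso
    apply hidx
    omega
  · exfalso
    apply hidx
    omega
  · rfl

/-- Sylow 5-subgroups are abelian. -/
theorem syl_abel (h : TC z t₀ Q) (P : Sylow 5 G) {a b : G} (ha : a ∈ P) (hb : b ∈ P) : Commute a b := by
  haveI : Fact (Nat.Prime 5) := ⟨by norm_num⟩
  have hc : Nat.card P = 5 ^ 2 := card_syl h P
  have hcm := IsPGroup.isMulCommutative_of_card_eq_prime_sq hc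
  have := hcm.is_comm.comm (⟨a, ha⟩ : P) ⟨b, hb⟩
  exact congrArg Subtype.val this

/-- Elements of order five lie in a Sylow 5-subgroup. -/
theorem exists_syl {x : G} (hx : orderOf x = 5) : ∃ P : Sylow 5 G, x ∈ P := by
  haveI : Fact (Nat.Prime 5) := ⟨by norm_num⟩
  have hc : Nat.card (Subgroup.zpowers x) = 5 ^ 1 := by
    rw [Nat.card_zpowers, hx]
    rfl
  have hp : IsPGroup 5 (Subgroup.zpowers x) := IsPGroup.of_card hc
  obtain ⟨P, hP⟩ := hp.exists_le_sylow
  exact ⟨P, hP (Subgroup.mem_zpowers x)⟩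

/-- Elements of order five can be conjugated into a given Sylow 5-subgroup. -/
theorem conj_into_syl {x : G} (hx : orderOf x = 5) (P : Sylow 5 G) : ∃ c : G, c * x * c⁻¹ ∈ P := by
  haveI : Fact (Nat.Prime 5) := ⟨by norm_num⟩
  obtain ⟨P', hP'⟩ := exists_syl hx
  obtain ⟨c, hc⟩ := MulAction.exists_smul_eq G P' P
  refine ⟨c, ?_⟩
  have hm : x ∈ (P' : Subgroup G) := hP'
  rw [← hc]
  show c * x * c⁻¹ ∈ ((c • P' : Sylow 5 G) : Subgroup G)
  rw [Sylow.coe_subgroup_smul]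
  have := Subgroup.smul_mem_pointwise_smul x (MulAut.conj c) (P' : Subgroup G) hm
  simpa [MulAut.smul_def] using this

/-- The centralizer of an element of a Sylow subgroup has order divisible by 25. -/
theorem dvd_cent (h : TC z t₀ Q) {x : G} (hx : orderOf x = 5) : 25 ∣ Nat.card (HH x) := by
  obtain ⟨P, hP⟩ := exists_syl hx
  have hle : (P : Subgroup G) ≤ HH x := fun p hp => mem_HH.2 (syl_abel h P hp hP)
  have := Subgroup.card_dvd_of_le hle
  rwa [card_syl h P] at this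

variable (h : TC z t₀ Q) {v₀ : LL t₀} (hv₀ : v₀ ∈ setA z t₀) (hn : ¬ Commute (bL t₀) v₀)

include h hv₀ hn

/-- Elements of order five of the centralizer lie in the generated subgroup. -/
theorem x_mem_M {x : G} (hx : x ∈ HH t₀.1) (h5 : x ^ 5 = 1) : (⟨x, hx⟩ : LL t₀) ∈ MM z t₀ := by
  obtain ⟨y, m, h1, h2, h3, e⟩ := decomp h.ct (card15 h) h.bL_mem hv₀ hn (⟨x, hx⟩ : LL t₀)
  have hy : y ∈ YY t₀ v₀ := mem_YY.2 ⟨h1, h2⟩
  have hc : Commute y m := Y_central h hv₀ hn hy m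
  have hyy := Y_sq h hv₀ hn hy
  have h6 : (y * m) ^ 5 = 1 := by
    rw [← e]
    apply Subtype.ext
    exact h5
  rw [hc.mul_pow] at h6
  have hy5 : y ^ 5 = y := by
    have e1 : y ^ 5 = y * ((y * y) * (y * y)) := by simp only [pow_succ, pow_zero, one_mul, mul_assoc]
    rw [e1, hyy]
    simp
  rw [hy5] at h6
  have hy2 : y = (m ^ 5)⁻¹ := eq_inv_of_mul_eq_one_left h6
  have hyM : y ∈ MM z t₀ := by
    rw [hy2]
    exact Subgroup.inv_mem _ (Subgroup.pow_mem _ h3 5)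
  have hy1 := Y_M h hv₀ hn hy hyM
  rw [e, hy1, one_mul]
  exact h3

/-- The main description of the centralizer of an element of order five of the first type. -/
theorem T1_main {x : G} (hx : x ∈ HH t₀.1) (hox : orderOf x = 5) :
    Nat.card (HH x) = 300 ∧ (∀ v : G, v * v = 1 → v ≠ 1 → Commute v x → IsConj t₀.1 v) ∧
      Nat.card {v : G | v * v = 1 ∧ v ≠ 1 ∧ Commute v x} = 15 ∧
      (∀ g p : G, p ^ 5 = 1 → p ∉ Subgroup.zpowers x → Commute g x → Commute p x → Commute g p →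
        ∃ k : ℕ, ∃ w ∈ Subgroup.zpowers x, g = p ^ k * w) := by
  have h5 : x ^ 5 = 1 := by rw [← hox]; exact pow_orderOf_eq_one x
  have hx1 : x ≠ 1 := by
    rintro rfl
    simp at hox
  have hYle : Yg t₀ v₀ ≤ HH x := by
    intro y hy
    exact mem_HH.2 (((mem_Yg' h hv₀ hn).1 hy).2 x hx)
  let c : HH x := zH x
  have hcv : c.1 = x := rfl
  have hc5 : c ^ 5 = 1 := Subtype.ext h5
  have hc1 : c ≠ 1 := fun e => hx1 (congrArg Subtype.val e)
  have hcc : ∀ g : HH x, Commute g c := fun g => Subtype.ext (mem_HH.1 g.2)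
  let Y₀ : Subgroup (HH x) := (Yg t₀ v₀).subgroupOf (HH x)
  have hY4 : Nat.card Y₀ = 4 := by
    rw [← card_Yg h hv₀ hn]
    exact Nat.card_congr (Subgroup.subgroupOfEquivOfLe hYle).toEquiv
  have hY2 : ∀ y ∈ Y₀, y * y = 1 := by
    intro y hy
    apply Subtype.ext
    obtain ⟨y', hy', e⟩ := hy
    have e' : y'.1 = y.1 := e
    show y.1 * y.1 = 1
    rw [← e']
    exact congrArg Subtype.val (Y_sq h hv₀ hn hy')
  obtain ⟨e₂⟩ := M_alt h.ct (card15 h) h.bL_mem
  have hxM := x_mem_M h hv₀ hn hx h5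
  have hY : ∀ y ∈ Y₀, y ≠ 1 → ∀ g : HH x, Commute g y →
      ∃ y' ∈ Y₀, ∃ w ∈ Subgroup.zpowers c, g = y' * w := by
    intro y hy hy1 g hg
    have hy' : y.1 ∈ Yg t₀ v₀ := hy
    have hy1' : y.1 ≠ 1 := fun e => hy1 (Subtype.ext e)
    have hgy : Commute g.1 y.1 := congrArg Subtype.val hg
    have hgL : g.1 ∈ HH t₀.1 := by
      rw [← HH_eq h hv₀ hn hy' hy1']
      exact mem_HH.2 hgy
    obtain ⟨y₂, m, h1, h2, h3, e⟩ := decomp h.ct (card15 h) h.bL_mem hv₀ hn (⟨g.1, hgL⟩ : LL t₀)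
    have hy₂ : y₂ ∈ YY t₀ v₀ := mem_YY.2 ⟨h1, h2⟩
    have hy₂G : y₂.1 ∈ Yg t₀ v₀ := mem_Yg_of y₂.2 hy₂
    have hgval : g.1 = y₂.1 * m.1 := congrArg Subtype.val e
    -- `m` commutes with `x`
    have hy₂x : Commute y₂.1 x := mem_HH.1 (hYle hy₂G)
    have hgx : Commute g.1 x := mem_HH.1 g.2
    have hmx : Commute m.1 x := by
      rw [hgval] at hgx
      have e1 : m.1 = y₂.1⁻¹ * (y₂.1 * m.1) := by group
      rw [e1]
      exact hy₂x.inv_left.mul_left hgx
    have hmx' : Commute (⟨x, hx⟩ : LL t₀) m := Subtype.ext hmx.symm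
    -- inside the simple group
    let a : MM z t₀ := ⟨⟨x, hx⟩, hxM⟩
    let b : MM z t₀ := ⟨m, h3⟩
    have ha5 : e₂ a ^ 5 = 1 := by
      rw [← map_pow]
      have : a ^ 5 = 1 := Subtype.ext (Subtype.ext h5)
      rw [this, map_one]
    have ha1 : e₂ a ≠ 1 := by
      intro e0
      have := (map_eq_one_iff e₂ e₂.injective).1 e0
      exact hx1 (congrArg (fun w : MM z t₀ => w.1.1) this)
    have hab : e₂ a * e₂ b = e₂ b * e₂ a := by
      rw [← map_mul, ← map_mul]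
      congr 1
      exact Subtype.ext hmx'
    obtain ⟨k, hk⟩ := A5_cent5 _ _ ha5 ha1 hab
    have hbk : b = a ^ k := by
      apply e₂.injective
      rw [hk, map_pow]
    have hmk : m.1 = x ^ k := by
      have := congrArg (fun w : MM z t₀ => w.1.1) hbk
      simpa [a, b] using this
    refine ⟨⟨y₂.1, hYle hy₂G⟩, hy₂G, c ^ k, Subgroup.npow_mem_zpowers c k, ?_⟩
    apply Subtype.ext
    show g.1 = y₂.1 * (c ^ k).1
    rw [hgval, hmk]
    rfl
  have h25 := dvd_cent h hox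
  have ht : t₀.1 ∈ Yg t₀ v₀ := t_mem h hv₀ hn
  let y₀ : HH x := ⟨t₀.1, hYle ht⟩
  have hy₀ : y₀ ∈ Y₀ := ht
  have hy₀1 : y₀ ≠ 1 := fun e => h.t1 (congrArg Subtype.val e)
  obtain ⟨r1, r2, r3, r4⟩ := central_ext c hc5 hc1 hcc Y₀ hY4 hY2 hY h25 hy₀ hy₀1
  refine ⟨r1, ?_, ?_, ?_⟩
  · intro v hvv hv1 hvx
    have := r2 ⟨v, mem_HH.2 hvx⟩ (Subtype.ext hvv) (fun e => hv1 (congrArg Subtype.val e))
    obtain ⟨d, hd⟩ := isConj_iff.1 this
    exact isConj_iff.2 ⟨d.1, congrArg Subtype.val hd⟩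
  · rw [← r3]
    apply Nat.card_congr
    refine ⟨fun v => ⟨⟨v.1, mem_HH.2 v.2.2.2⟩, Subtype.ext v.2.1, fun e => v.2.2.1 (congrArg Subtype.val e)⟩,
      fun v => ⟨v.1.1, congrArg Subtype.val v.2.1, fun e => v.2.2 (Subtype.ext e), mem_HH.1 v.1.2⟩,
      fun v => rfl, fun v => rfl⟩
  · intro g p hp5 hpW hgx hpx hgp
    have hpW' : (⟨p, mem_HH.2 hpx⟩ : HH x) ∉ Subgroup.zpowers c := by
      intro hm
      obtain ⟨k, hk⟩ := Subgroup.mem_zpowers_iff.1 hm
      apply hpW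
      refine Subgroup.mem_zpowers_iff.2 ⟨k, ?_⟩
      have := congrArg Subtype.val hk
      simpa [c, zH] using this
    obtain ⟨k, w, hw, e⟩ := r4 ⟨g, mem_HH.2 hgx⟩ ⟨p, mem_HH.2 hpx⟩ (Subtype.ext hp5) hpW'
      (Subtype.ext hgp)
    obtain ⟨l, rfl⟩ := Subgroup.mem_zpowers_iff.1 hw
    refine ⟨k, x ^ l, Subgroup.zpow_mem_zpowers x l, ?_⟩
    have := congrArg Subtype.val e
    simpa [c, zH] using this

omit hv₀ hn in
/-- An element of order five in the second centralizer. -/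
theorem exists_x1 : ∃ x ∈ HH t₀.1, orderOf x = 5 := by
  haveI : Fact (Nat.Prime 5) := ⟨by norm_num⟩
  have hc : Nat.card (HH t₀.1) = 240 := card_Λ h.ct (card15 h) h.bL_mem
  obtain ⟨x, hx⟩ := exists_prime_orderOf_dvd_card' (G := HH t₀.1) 5 (by rw [hc]; norm_num)
  exact ⟨x.1, x.2, (Subgroup.orderOf_coe x).trans hx⟩

omit hv₀ hn in
/-- An element of order five in the first centralizer. -/
theorem exists_x0 : ∃ x : G, Commute x z ∧ orderOf x = 5 := by
  haveI : Fact (Nat.Prime 5) := ⟨by norm_num⟩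
  have hc : Nat.card (HH z) = 1920 := h.b.card_C
  obtain ⟨x, hx⟩ := exists_prime_orderOf_dvd_card' (G := HH z) 5 (by rw [hc]; norm_num)
  exact ⟨x.1, mem_HH.1 x.2, (Subgroup.orderOf_coe x).trans hx⟩

theorem T1_no_z {x : G} (hx : x ∈ HH t₀.1) (hox : orderOf x = 5) {u : G} (hu : IsConj z u) :
    ¬ Commute u x := by
  intro hc
  have := (T1_main h hv₀ hn hx hox).2.1 u (zconj_inv hu h.zz) (zconj_ne hu h.z1) hc
  exact h.zt (hu.trans this.symm)

omit h hv₀ hn in
theorem zp_eq {a b : G} (ha : orderOf a = 5) (hb : orderOf b = 5) (hm : a ∈ Subgroup.zpowers b) :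
    Subgroup.zpowers a = Subgroup.zpowers b := by
  apply Subgroup.eq_of_le_of_card_ge (Subgroup.zpowers_le.2 hm)
  rw [Nat.card_zpowers, Nat.card_zpowers, ha, hb]

/-- Sylow 5-subgroups have exponent five. -/
theorem syl_exp (P : Sylow 5 G) {p : G} (hp : p ∈ P) : p ^ 5 = 1 := by
  by_contra hne
  have hcard : Nat.card P = 25 := card_syl h P
  have h25 : p ^ 25 = 1 := by
    have := pow_card_eq_one' (x := (⟨p, hp⟩ : P))
    rw [show Nat.card ↥P = 25 from hcard] at this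
    exact congrArg Subtype.val this
  have hord : orderOf p = 25 := by
    have h1 : orderOf p ∣ 5 ^ 2 := orderOf_dvd_of_pow_eq_one h25
    obtain ⟨k, hk, e⟩ := (Nat.dvd_prime_pow (by norm_num)).1 h1
    interval_cases k
    · exfalso
      rw [pow_zero] at e
      rw [orderOf_eq_one_iff] at e
      rw [e] at hne
      simp at hne
    · exfalso
      rw [pow_one] at e
      apply hne
      rw [← e]
      exact pow_orderOf_eq_one p
    · exact e
  have hP : (P : Subgroup G) = Subgroup.zpowers p := by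
    symm
    apply Subgroup.eq_of_le_of_card_ge (Subgroup.zpowers_le.2 hp)
    rw [hcard, Nat.card_zpowers, hord]
  have hkey : ∀ q ∈ (P : Subgroup G), q ^ 5 = 1 → q ∈ Subgroup.zpowers (p ^ 5) := by
    intro q hq hq5
    rw [hP] at hq
    obtain ⟨k, rfl⟩ := Subgroup.mem_zpowers_iff.1 hq
    have h1 : p ^ (k * 5) = 1 := by
      rw [zpow_mul, zpow_ofNat]
      exact hq5
    have h2 : ((orderOf p : ℕ) : ℤ) ∣ k * 5 := orderOf_dvd_iff_zpow_eq_one.2 h1
    rw [hord] at h2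
    have h3 : (5 : ℤ) ∣ k := by omega
    obtain ⟨m, rfl⟩ := h3
    refine Subgroup.mem_zpowers_iff.2 ⟨m, ?_⟩
    rw [← zpow_natCast, ← zpow_mul]
    congr 1
  have hord5 : orderOf (p ^ 5) = 5 := by
    rw [orderOf_pow_of_dvd (by norm_num) ⟨5, by omega⟩, hord]
  obtain ⟨x₀, hx₀z, hx₀o⟩ := exists_x0 h
  obtain ⟨x₁, hx₁L, hx₁o⟩ := exists_x1 h
  obtain ⟨c, hc⟩ := conj_into_syl hx₀o P
  obtain ⟨d, hd⟩ := conj_into_syl hx₁o P
  have ho0 : orderOf (c * x₀ * c⁻¹) = 5 := by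
    rw [← order_conj (isConj_iff.2 ⟨c, rfl⟩), hx₀o]
  have ho1 : orderOf (d * x₁ * d⁻¹) = 5 := by
    rw [← order_conj (isConj_iff.2 ⟨d, rfl⟩), hx₁o]
  have h50 : (c * x₀ * c⁻¹) ^ 5 = 1 := by rw [← ho0]; exact pow_orderOf_eq_one _
  have h51 : (d * x₁ * d⁻¹) ^ 5 = 1 := by rw [← ho1]; exact pow_orderOf_eq_one _
  have e0 := zp_eq ho0 hord5 (hkey _ hc h50)
  have m1 : d * x₁ * d⁻¹ ∈ Subgroup.zpowers (c * x₀ * c⁻¹) := by
    rw [e0]
    exact hkey _ hd h51
  obtain ⟨k, hk⟩ := Subgroup.mem_zpowers_iff.1 m1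
  have hcm0 : Commute (c * z * c⁻¹) (c * x₀ * c⁻¹) := cconj hx₀z.symm c
  have hcm1 : Commute (c * z * c⁻¹) (d * x₁ * d⁻¹) := by
    rw [← hk]
    exact hcm0.zpow_right k
  have hcm2 := cconj hcm1 d⁻¹
  have e1 : d⁻¹ * (d * x₁ * d⁻¹) * d⁻¹⁻¹ = x₁ := by group
  rw [e1] at hcm2
  refine T1_no_z h hv₀ hn hx₁L hx₁o ?_ hcm2
  exact (isConj_iff.2 ⟨c, rfl⟩).trans (isConj_iff.2 ⟨d⁻¹, rfl⟩)

/-- Elements commuting with a Sylow subgroup containing an element of the first type lie in it. -/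
theorem cent_syl_of (P : Sylow 5 G) {x : G} (hxP : x ∈ P) (hx : x ∈ HH t₀.1) (hox : orderOf x = 5)
    {g : G} (hg : ∀ p ∈ P, Commute g p) : g ∈ P := by
  have hcard : Nat.card P = 25 := card_syl h P
  obtain ⟨p, hp, hpn⟩ : ∃ p ∈ (P : Subgroup G), p ∉ Subgroup.zpowers x := by
    by_contra hno
    push Not at hno
    have hle : (P : Subgroup G) ≤ Subgroup.zpowers x := hno
    have := Subgroup.card_dvd_of_le hle
    rw [hcard, Nat.card_zpowers, hox] at this
    omega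
  obtain ⟨k, w, hw, e⟩ := (T1_main h hv₀ hn hx hox).2.2.2 g p (syl_exp h hv₀ hn P hp) hpn (hg x hxP)
    (syl_abel h P hp hxP) (hg p hp)
  rw [e]
  refine Subgroup.mul_mem _ (Subgroup.pow_mem _ hp k) ?_
  exact (Subgroup.zpowers_le.2 hxP) hw

/-- Sylow 5-subgroups are self-centralizing. -/
theorem cent_syl (P : Sylow 5 G) : Subgroup.centralizer ((P : Subgroup G) : Set G) = P := by
  haveI : Fact (Nat.Prime 5) := ⟨by norm_num⟩
  apply le_antisymm
  · intro g hg
    have hg' : ∀ p ∈ (P : Subgroup G), Commute g p := fun p hp =>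
      ((Subgroup.mem_centralizer_iff.1 hg) p hp).symm
    obtain ⟨x₁, hx₁L, hx₁o⟩ := exists_x1 h
    obtain ⟨c, hc⟩ := conj_into_syl hx₁o P
    -- the conjugate Sylow subgroup
    have hmem : ∀ q : G, q ∈ ((c⁻¹ • P : Sylow 5 G) : Subgroup G) ↔ c * q * c⁻¹ ∈ (P : Subgroup G) := by
      intro q
      rw [Sylow.coe_subgroup_smul, Cfsg.Agent.Lib.PCore.mem_conj_smul_iff, inv_inv]
    have h1 : c⁻¹ * g * c ∈ ((c⁻¹ • P : Sylow 5 G) : Subgroup G) := by
      apply cent_syl_of h hv₀ hn (c⁻¹ • P : Sylow 5 G) ((hmem x₁).2 hc) hx₁L hx₁o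
      intro p hp
      have h2 := cconj (hg' _ ((hmem p).1 hp)) c⁻¹
      have e1 : c⁻¹ * (c * p * c⁻¹) * c⁻¹⁻¹ = p := by group
      rw [e1, inv_inv] at h2
      exact h2
    have h3 := (hmem _).1 h1
    have e2 : c * (c⁻¹ * g * c) * c⁻¹ = g := by group
    rwa [e2] at h3
  · intro p hp
    rw [Subgroup.mem_centralizer_iff]
    intro q hq
    exact syl_abel h P hq hp

/-- Elements commuting with an element of order five of the first centralizer, in that centralizer. -/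
theorem T0_cQ {x₀ : HH z} (hox : orderOf x₀ = 5) {q : HH z} (hq : q ∈ Q) (hc : Commute q x₀) :
    q = 1 ∨ q = zH z := by
  classical
  haveI : Fact (Nat.Prime 5) := ⟨by norm_num⟩
  have hb := h.b
  have h5 : x₀ ^ 5 = 1 := by rw [← hox]; exact pow_orderOf_eq_one x₀
  have hm := card_mod_conj (Q : Set (HH z)) (fun u hu g => hb.nQ.conj_mem u hu g) 5 1 x₀
    (by simpa using h5)
  set F := Q ⊓ Subgroup.centralizer ({x₀} : Set (HH z)) with hF
  have hcardF : Nat.card {x : (Q : Set (HH z)) // x₀ * x.1 * x₀⁻¹ = x.1} = Nat.card F := by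
    apply Nat.card_congr
    refine ⟨fun x => ⟨x.1.1, x.1.2, ?_⟩, fun x => ⟨⟨x.1, x.2.1⟩, ?_⟩, fun x => rfl, fun x => rfl⟩
    · show x.1.1 ∈ Subgroup.centralizer ({x₀} : Set (HH z))
      rw [Subgroup.mem_centralizer_singleton_iff]
      exact (comm_of_conj_eq x.2).symm
    · have := Subgroup.mem_centralizer_singleton_iff.1 x.2.2
      exact conj_eq_of_comm (Commute.symm this)
  rw [hcardF] at hm
  have h32 : Nat.card (Q : Set (HH z)) = 32 := hb.card32
  rw [h32] at hm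
  have hdvd : Nat.card F ∣ 32 := by
    have := Subgroup.card_dvd_of_le (inf_le_left : F ≤ Q)
    rwa [hb.card32] at this
  have hle : Nat.card F ≤ 32 := Nat.le_of_dvd (by norm_num) hdvd
  have hcases : Nat.card F = 2 ∨ Nat.card F = 32 := by
    have hm' : 32 % 5 = Nat.card F % 5 := hm
    generalize Nat.card F = n at hm' hdvd hle
    interval_cases n <;> omega
  have hx₀1 : x₀ ≠ 1 := by
    rintro rfl
    simp at hox
  rcases hcases with e | e
  · -- two elements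
    have hqF : q ∈ F := ⟨hq, Subgroup.mem_centralizer_singleton_iff.2 hc⟩
    have h1F : (1 : HH z) ∈ F := F.one_mem
    have hzF : zH z ∈ F := ⟨hb.zQ, Subgroup.mem_centralizer_singleton_iff.2 (hb.zc x₀).symm⟩
    by_contra hne
    push Not at hne
    have hsub : ({q, 1, zH z} : Set (HH z)) ⊆ (F : Set (HH z)) := by
      rintro w (rfl | rfl | rfl)
      · exact hqF
      · exact h1F
      · exact hzF
    have h3 : ({q, 1, zH z} : Set (HH z)).ncard = 3 := by
      rw [Set.ncard_eq_three]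
      exact ⟨q, 1, zH z, hne.1, hne.2, hb.z1.symm, rfl⟩
    have h4 := Set.ncard_le_ncard hsub (Set.toFinite _)
    rw [h3, ← Nat.card_coe_set_eq] at h4
    have e' : Nat.card (F : Set (HH z)) = 2 := e
    omega
  · exfalso
    have hFQ : F = Q := by
      apply Subgroup.eq_of_le_of_card_ge inf_le_left
      rw [e, hb.card32]
    have hxQ : x₀ ∈ Q := by
      apply hb.faith
      intro y hy
      rw [← hFQ] at hy
      exact (Subgroup.mem_centralizer_singleton_iff.1 hy.2).symm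
    have h32' : x₀ ^ 32 = 1 := by
      have := pow_card_eq_one' (x := (⟨x₀, hxQ⟩ : Q))
      rw [hb.card32] at this
      exact congrArg Subtype.val this
    apply hx₀1
    calc x₀ = (x₀ ^ 5) ^ 13 * ((x₀ ^ 32) ^ 2)⁻¹ := by group
      _ = 1 := by rw [h32', h5]; simp

/-- Elements of the first centralizer commuting with an element of order five. -/
theorem T0_cH {x₀ : HH z} (hox : orderOf x₀ = 5) {g : HH z} (hg : Commute g x₀) :
    ∃ k : ℕ, g = x₀ ^ k ∨ g = zH z * x₀ ^ k := by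
  have hb := h.b
  obtain ⟨π, hs, hq⟩ := hb.iso
  have h5 : x₀ ^ 5 = 1 := by rw [← hox]; exact pow_orderOf_eq_one x₀
  have hx₀1 : x₀ ≠ 1 := by
    rintro rfl
    simp at hox
  have ha5 : π x₀ ^ 5 = 1 := by rw [← map_pow, h5, map_one]
  have ha1 : π x₀ ≠ 1 := by
    intro e
    have hxQ : x₀ ∈ Q := (hq x₀).1 e
    have h32' : x₀ ^ 32 = 1 := by
      have := pow_card_eq_one' (x := (⟨x₀, hxQ⟩ : Q))
      rw [hb.card32] at this
      exact congrArg Subtype.val this
    apply hx₀1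
    calc x₀ = (x₀ ^ 5) ^ 13 * ((x₀ ^ 32) ^ 2)⁻¹ := by group
      _ = 1 := by rw [h32', h5]; simp
  have hab : π x₀ * π g = π g * π x₀ := by
    rw [← map_mul, ← map_mul, hg.eq]
  obtain ⟨k, hk⟩ := A5_cent5 _ _ ha5 ha1 hab
  have hqQ : (x₀ ^ k)⁻¹ * g ∈ Q := by
    rw [← hq, map_mul, map_inv, map_pow, hk]
    simp
  have hqc : Commute ((x₀ ^ k)⁻¹ * g) x₀ := ((Commute.refl x₀).pow_left k).inv_left.mul_left hg
  refine ⟨k, ?_⟩
  rcases T0_cQ h hv₀ hn hox hqQ hqc with e | e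
  · left
    exact (inv_mul_eq_one.1 e).symm
  · right
    have e2 : g = x₀ ^ k * ((x₀ ^ k)⁻¹ * g) := by group
    rw [e2, e]
    exact hb.zc (x₀ ^ k)

/-- The main description of the centralizer of an element of order five of the second type. -/
theorem T0_main {x : G} (hxz : Commute x z) (hox : orderOf x = 5) :
    Nat.card (HH x) = 50 ∧ (∀ v : G, v * v = 1 → v ≠ 1 → Commute v x → ∃ d ∈ HH x, d * z * d⁻¹ = v) ∧
      Nat.card {v : G | v * v = 1 ∧ v ≠ 1 ∧ Commute v x} = 5 := by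
  classical
  haveI hp3 : Fact (Nat.Prime 3) := ⟨by norm_num⟩
  haveI hp7 : Fact (Nat.Prime 7) := ⟨by norm_num⟩
  haveI hp2 : Fact (Nat.Prime 2) := ⟨Nat.prime_two⟩
  have h5 : x ^ 5 = 1 := by rw [← hox]; exact pow_orderOf_eq_one x
  have hx1 : x ≠ 1 := by
    rintro rfl
    simp at hox
  let c : HH x := zH x
  have hc5 : c ^ 5 = 1 := Subtype.ext h5
  have hc1 : c ≠ 1 := fun e => hx1 (congrArg Subtype.val e)
  have hcc : ∀ g : HH x, Commute g c := fun g => Subtype.ext (mem_HH.1 g.2)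
  let a : HH x := ⟨z, mem_HH.2 hxz.symm⟩
  have haa : a * a = 1 := Subtype.ext h.zz
  have ha1 : a ≠ 1 := fun e => h.z1 (congrArg Subtype.val e)
  let x₀ : HH z := ⟨x, mem_HH.2 hxz⟩
  have hx₀o : orderOf x₀ = 5 := (Subgroup.orderOf_mk x _).trans hox
  have hCa : ∀ g : HH x, Commute g a → ∃ w ∈ Subgroup.zpowers c, g = w ∨ g = a * w := by
    intro g hg
    have hg1 : g.1 * z = z * g.1 := congrArg Subtype.val hg
    have hg2 : g.1 * x = x * g.1 := mem_HH.1 g.2
    let g₀ : HH z := ⟨g.1, mem_HH.2 hg1⟩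
    have hg₀ : Commute g₀ x₀ := Subtype.ext hg2
    obtain ⟨k, e | e⟩ := T0_cH h hv₀ hn hx₀o hg₀
    · refine ⟨c ^ k, Subgroup.npow_mem_zpowers c k, Or.inl ?_⟩
      apply Subtype.ext
      have := congrArg Subtype.val e
      simpa [g₀, x₀, c, zH] using this
    · refine ⟨c ^ k, Subgroup.npow_mem_zpowers c k, Or.inr ?_⟩
      apply Subtype.ext
      have := congrArg Subtype.val e
      simpa [g₀, x₀, c, a, zH] using this
  obtain ⟨r1, r2, r3, r4⟩ := central_ext_inv c hc5 hc1 hcc haa ha1 hCa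
  obtain ⟨P, hxP⟩ := exists_syl hox
  have hPle : (P : Subgroup G) ≤ HH x := fun p hp => mem_HH.2 (syl_abel h P hp hxP)
  have hcent := cent_syl h hv₀ hn P
  -- no other primes
  have hno : ∀ q : ℕ, [Fact q.Prime] → Odd q → Nat.Coprime q 5 → ¬ q ∣ Nat.card (HH x) := by
    intro q _ hq hqc hd
    obtain ⟨g, hg⟩ := exists_prime_orderOf_dvd_card' (G := HH x) q hd
    have hgq : g ^ q = 1 := by rw [← hg]; exact pow_orderOf_eq_one g
    have hgP : g.1 ∈ (P : Subgroup G) := by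
      rw [← hcent, Subgroup.mem_centralizer_iff]
      intro p hp
      have hp5 : (⟨p, hPle hp⟩ : HH x) ^ 5 = 1 := Subtype.ext (syl_exp h hv₀ hn P hp)
      have := r2 g ⟨p, hPle hp⟩ q hgq hq hqc hp5
      exact (congrArg Subtype.val this).symm
    have h25 : g.1 ^ 25 = 1 := by
      have := pow_card_eq_one' (x := (⟨g.1, hgP⟩ : P))
      rw [show Nat.card ↥P = 25 from card_syl h P] at this
      exact congrArg Subtype.val this
    have h25' : g ^ 25 = 1 := Subtype.ext h25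
    have hd2 : q ∣ 25 := by
      rw [← hg]
      exact orderOf_dvd_of_pow_eq_one h25'
    have hd3 : q ∣ 5 := (Fact.out : q.Prime).dvd_of_dvd_pow (show q ∣ 5 ^ 2 from hd2)
    have : q ∣ Nat.gcd q 5 := Nat.dvd_gcd dvd_rfl hd3
    rw [Nat.Coprime.gcd_eq_one hqc] at this
    exact (Fact.out : q.Prime).one_lt.ne' (Nat.dvd_one.1 this)
  have h3 := hno 3 (by decide) (by norm_num)
  have h7 := hno 7 (by decide) (by norm_num)
  have h25 := dvd_cent h hox
  have h2 : 2 ∣ Nat.card (HH x) := by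
    have ho : orderOf a = 2 := order_two haa ha1
    rw [← ho]
    exact orderOf_dvd_natCard a
  have hdvd : Nat.card (HH x) ∣ 604800 := by
    have := Subgroup.card_subgroup_dvd_card (HH x)
    rwa [h.card_G] at this
  have hn50 : Nat.card (HH x) = 50 := by
    obtain ⟨m, hm⟩ := h25
    rw [hm] at hdvd h3 h7 h2 r4
    have h1 : 25 * m ∣ 25 * 24192 := by simpa using hdvd
    have h4 : m ∣ 24192 := Nat.dvd_of_mul_dvd_mul_left (by norm_num) h1
    have hm3 : Nat.Coprime m 3 := ((Nat.Prime.coprime_iff_not_dvd (by norm_num)).2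
      (fun hd => h3 (Dvd.dvd.mul_left hd 25))).symm
    have hm7 : Nat.Coprime m 7 := ((Nat.Prime.coprime_iff_not_dvd (by norm_num)).2
      (fun hd => h7 (Dvd.dvd.mul_left hd 25))).symm
    have hm189 : Nat.Coprime m 189 := by
      show Nat.Coprime m (3 ^ 3 * 7)
      exact Nat.Coprime.mul_right (Nat.Coprime.pow_right 3 hm3) hm7
    have hm128 : m ∣ 128 := Nat.Coprime.dvd_of_dvd_mul_right hm189 (show m ∣ 128 * 189 from h4)
    have hle : m ≤ 128 := Nat.le_of_dvd (by norm_num) hm128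
    interval_cases m <;> omega
  have hT : Nat.card {v : HH x | v * v = 1 ∧ v ≠ 1} = 5 := by
    rw [hn50] at r3
    omega
  refine ⟨hn50, ?_, ?_⟩
  · intro v hvv hv1 hvx
    have := r1 ⟨v, mem_HH.2 hvx⟩ (Subtype.ext hvv) (fun e => hv1 (congrArg Subtype.val e))
    obtain ⟨d, hd⟩ := isConj_iff.1 this
    exact ⟨d.1, d.2, congrArg Subtype.val hd⟩
  · rw [← hT]
    apply Nat.card_congr
    refine ⟨fun v => ⟨⟨v.1, mem_HH.2 v.2.2.2⟩, Subtype.ext v.2.1, fun e => v.2.2.1 (congrArg Subtype.val e)⟩,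
      fun v => ⟨v.1.1, congrArg Subtype.val v.2.1, fun e => v.2.2 (Subtype.ext e), mem_HH.1 v.1.2⟩,
      fun v => rfl, fun v => rfl⟩

omit h hv₀ hn in
/-- Elements of a class commuting with a given element. -/
abbrev FF (w x : G) : Set G := {u | IsConj w u ∧ Commute u x}

omit h hv₀ hn in
theorem card_FF_conj (w x c : G) : Nat.card (FF w (c * x * c⁻¹)) = Nat.card (FF w x) := by
  apply Nat.card_congr
  refine ⟨fun u => ⟨c⁻¹ * u.1 * c, ?_, ?_⟩, fun u => ⟨c * u.1 * c⁻¹, ?_, ?_⟩, fun u => ?_, fun u => ?_⟩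
  · exact u.2.1.trans (isConj_iff.2 ⟨c⁻¹, by group⟩)
  · have := cconj u.2.2 c⁻¹
    have e1 : c⁻¹ * (c * x * c⁻¹) * c⁻¹⁻¹ = x := by group
    have e2 : c⁻¹ * u.1 * c⁻¹⁻¹ = c⁻¹ * u.1 * c := by group
    rwa [e1, e2] at this
  · exact u.2.1.trans (isConj_iff.2 ⟨c, rfl⟩)
  · exact cconj u.2.2 c
  · apply Subtype.ext
    show c * (c⁻¹ * u.1 * c) * c⁻¹ = u.1
    group
  · apply Subtype.ext
    show c⁻¹ * (c * u.1 * c⁻¹) * c = u.1
    group

/-- Counts for elements of the second type. -/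
theorem typeZ {p u : G} (hp : orderOf p = 5) (hu : IsConj z u) (hc : Commute u p) :
    Nat.card (HH p) = 50 ∧ Nat.card (FF z p) = 5 ∧ Nat.card (FF t₀.1 p) = 0 := by
  obtain ⟨c, rfl⟩ := isConj_iff.1 hu
  have hc' := cconj hc c⁻¹
  have e1 : c⁻¹ * (c * z * c⁻¹) * c⁻¹⁻¹ = z := by group
  rw [e1] at hc'
  set x := c⁻¹ * p * c⁻¹⁻¹ with hx
  have hpx : p = c * x * c⁻¹ := by rw [hx]; group
  have hxz : Commute x z := hc'.symm
  have hox : orderOf x = 5 := by
    rw [← hp, hpx, ← order_conj (isConj_iff.2 ⟨c, rfl⟩)]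
  obtain ⟨r1, r2, r3⟩ := T0_main h hv₀ hn hxz hox
  refine ⟨?_, ?_, ?_⟩
  · rw [hpx, card_centralizer_conj, r1]
  · rw [hpx, card_FF_conj, ← r3]
    apply Nat.card_congr
    refine ⟨fun u => ⟨u.1, zconj_inv u.2.1 h.zz, zconj_ne u.2.1 h.z1, u.2.2⟩, fun u => ⟨u.1, ?_, u.2.2.2⟩,
      fun u => rfl, fun u => rfl⟩
    obtain ⟨d, -, hd⟩ := r2 u.1 u.2.1 u.2.2.1 u.2.2.2
    exact isConj_iff.2 ⟨d, hd⟩
  · rw [hpx, card_FF_conj]
    rw [Nat.card_eq_zero]
    left
    constructor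
    rintro ⟨v, hv1, hv2⟩
    have hvv : v * v = 1 := by
      obtain ⟨d, rfl⟩ := isConj_iff.1 hv1
      calc d * t₀.1 * d⁻¹ * (d * t₀.1 * d⁻¹) = d * (t₀.1 * t₀.1) * d⁻¹ := by group
        _ = 1 := by rw [h.tt']; group
    have hv' : v ≠ 1 := by
      rintro rfl
      exact h.t1 (isConj_one_right.1 hv1.symm)
    obtain ⟨d, -, hd⟩ := r2 v hvv hv' hv2
    exact h.zt ((isConj_iff.2 ⟨d, hd⟩).trans hv1.symm)

/-- Counts for elements of the first type. -/
theorem typeT {p u : G} (hp : orderOf p = 5) (hu : IsConj t₀.1 u) (hc : Commute u p) :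
    Nat.card (FF t₀.1 p) = 15 ∧ Nat.card (FF z p) = 0 := by
  obtain ⟨c, rfl⟩ := isConj_iff.1 hu
  have hc' := cconj hc c⁻¹
  have e1 : c⁻¹ * (c * t₀.1 * c⁻¹) * c⁻¹⁻¹ = t₀.1 := by group
  rw [e1] at hc'
  set x := c⁻¹ * p * c⁻¹⁻¹ with hx
  have hpx : p = c * x * c⁻¹ := by rw [hx]; group
  have hxL : x ∈ HH t₀.1 := mem_HH.2 hc'.symm
  have hox : orderOf x = 5 := by
    rw [← hp, hpx, ← order_conj (isConj_iff.2 ⟨c, rfl⟩)]
  obtain ⟨r1, r2, r3, -⟩ := T1_main h hv₀ hn hxL hox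
  refine ⟨?_, ?_⟩
  · rw [hpx, card_FF_conj, ← r3]
    apply Nat.card_congr
    refine ⟨fun u => ⟨u.1, ?_, ?_, u.2.2⟩, fun u => ⟨u.1, r2 u.1 u.2.1 u.2.2.1 u.2.2.2, u.2.2.2⟩,
      fun u => rfl, fun u => rfl⟩
    · obtain ⟨d, hd⟩ := isConj_iff.1 u.2.1
      rw [← hd]
      calc d * t₀.1 * d⁻¹ * (d * t₀.1 * d⁻¹) = d * (t₀.1 * t₀.1) * d⁻¹ := by group
        _ = 1 := by rw [h.tt']; group
    · intro e
      have := u.2.1
      rw [e] at this
      exact h.t1 (isConj_one_right.1 this.symm)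
  · rw [hpx, card_FF_conj]
    rw [Nat.card_eq_zero]
    left
    constructor
    rintro ⟨v, hv1, hv2⟩
    exact T1_no_z h hv₀ hn hxL hox hv1 hv2

omit hv₀ hn in
theorem card_Zc : Nat.card {u : G | IsConj z u} = 315 := by
  have e := orbit_card (⊤ : Subgroup G) z {u | IsConj z u} (fun g _ => isConj_iff.2 ⟨g, rfl⟩)
    (fun y hy => by
      obtain ⟨g, hg⟩ := isConj_iff.1 hy
      exact ⟨g, Subgroup.mem_top g, hg⟩)
  have e2 : Nat.card (Subgroup.centralizer ({z} : Set G)) = 1920 := h.b.card_C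
  rw [top_inf_eq, e2, Subgroup.card_top, h.card_G] at e
  omega

omit hv₀ hn in
theorem card_Tc : Nat.card {u : G | IsConj t₀.1 u} = 2520 := by
  have e := orbit_card (⊤ : Subgroup G) t₀.1 {u | IsConj t₀.1 u} (fun g _ => isConj_iff.2 ⟨g, rfl⟩)
    (fun y hy => by
      obtain ⟨g, hg⟩ := isConj_iff.1 hy
      exact ⟨g, Subgroup.mem_top g, hg⟩)
  have e2 : Nat.card (Subgroup.centralizer ({t₀.1} : Set G)) = 240 := card_Λ h.ct (card15 h) h.bL_mem
  rw [top_inf_eq, e2, Subgroup.card_top, h.card_G] at e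
  omega

omit h hv₀ hn in
/-- Burnside's lemma for a subgroup acting by conjugation. -/
theorem burnside_dvd [Fintype G] (S : Subgroup G) [Fintype S] (A : Set G)
    (hA : ∀ u ∈ A, ∀ g : G, g * u * g⁻¹ ∈ A) :
    Nat.card S ∣ ∑ s : S, Nat.card {u : A // s.1 * u.1 * s.1⁻¹ = u.1} := by
  classical
  letI : MulAction S A :=
    { smul := fun g y => ⟨g.1 * y.1 * g.1⁻¹, hA y.1 y.2 g.1⟩
      one_smul := fun y => by
        apply Subtype.ext
        show (1 : G) * y.1 * (1 : G)⁻¹ = y.1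
        simp
      mul_smul := fun g g' y => by
        apply Subtype.ext
        show (g.1 * g'.1) * y.1 * (g.1 * g'.1)⁻¹ = g.1 * (g'.1 * y.1 * g'.1⁻¹) * g.1⁻¹
        group }
  have hb := MulAction.sum_card_fixedBy_eq_card_orbits_mul_card_group S A
  have e : ∀ s : S, Fintype.card (MulAction.fixedBy A s) = Nat.card {u : A // s.1 * u.1 * s.1⁻¹ = u.1} := by
    intro s
    rw [← Nat.card_eq_fintype_card]
    apply Nat.card_congr
    refine ⟨fun u => ⟨u.1, congrArg Subtype.val u.2⟩, fun u => ⟨u.1, Subtype.ext u.2⟩, fun u => rfl, fun u => rfl⟩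
  simp_rw [e] at hb
  rw [hb, Nat.card_eq_fintype_card]
  exact Dvd.intro_left _ rfl

omit h hv₀ hn in
theorem fix_FF (w s : G) : Nat.card {u : {u : G | IsConj w u} // s * u.1 * s⁻¹ = u.1} = Nat.card (FF w s) := by
  apply Nat.card_congr
  refine ⟨fun u => ⟨u.1.1, u.1.2, (comm_of_conj_eq u.2).symm⟩, fun u => ⟨⟨u.1, u.2.1⟩, conj_eq_of_comm u.2.2.symm⟩,
    fun u => rfl, fun u => rfl⟩

omit h hv₀ hn in
theorem FF_one (w : G) : Nat.card (FF w 1) = Nat.card {u : G | IsConj w u} := by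
  apply Nat.card_congr
  exact ⟨fun u => ⟨u.1, u.2.1⟩, fun u => ⟨u.1, u.2, Commute.one_right _⟩, fun u => rfl, fun u => rfl⟩

omit h hv₀ hn in
/-- The weighted sum over a Sylow subgroup. -/
theorem sum_formula [Fintype G] (P : Subgroup G) [Fintype P] [DecidableEq P] (w : G) (N m : ℕ) (R : G → Prop) [DecidablePred R]
    (hone : Nat.card {u : G | IsConj w u} = N)
    (hR : ∀ p : P, p ≠ 1 → R p.1 → Nat.card (FF w p.1) = m)
    (hnR : ∀ p : P, p ≠ 1 → ¬ R p.1 → Nat.card (FF w p.1) = 0) :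
    Nat.card P ∣ N + m * (Finset.univ.filter (fun p : P => p ≠ 1 ∧ R p.1)).card := by
  classical
  have h1 := burnside_dvd P {u : G | IsConj w u} (fun u hu g => IsConj.trans hu (isConj_iff.2 ⟨g, rfl⟩))
  simp_rw [fix_FF] at h1
  have e : ∀ p : P, Nat.card (FF w p.1) = (if p = 1 then N else 0) + (if p ≠ 1 ∧ R p.1 then m else 0) := by
    intro p
    by_cases hp : p = 1
    · subst hp
      have : Nat.card (FF w ((1 : P) : G)) = N := by
        rw [← hone, ← FF_one w]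
        rfl
      rw [if_pos rfl, if_neg (fun hc => hc.1 rfl), add_zero]
      exact this
    · by_cases hr : R p.1
      · rw [if_neg hp, if_pos ⟨hp, hr⟩, zero_add]
        exact hR p hp hr
      · rw [if_neg hp, if_neg (fun hc => hr hc.2), add_zero]
        exact hnR p hp hr
  simp_rw [e] at h1
  rw [Finset.sum_add_distrib, Finset.sum_ite_eq' Finset.univ (1 : P)] at h1
  simp only [Finset.mem_univ, if_true] at h1
  rw [Finset.sum_ite, Finset.sum_const_zero, add_zero, Finset.sum_const, smul_eq_mul, mul_comm] at h1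
  exact h1

omit h hv₀ hn in
/-- The subgroups generated by the elements satisfying a predicate closed under powers. -/
theorem card_fiber [Fintype G] (P : Subgroup G) [Fintype P] [DecidableEq P] [DecidableEq (Subgroup G)]
    (hexp : ∀ p ∈ P, p ^ 5 = 1)
    (R : G → Prop) [DecidablePred R]
    (hR : ∀ p q : G, R p → q ∈ Subgroup.zpowers p → R q) :
    (Finset.univ.filter (fun p : P => p ≠ 1 ∧ R p.1)).card =
      4 * ((Finset.univ.filter (fun p : P => p ≠ 1 ∧ R p.1)).image (fun p => Subgroup.zpowers p.1)).card := by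
  classical
  set E := Finset.univ.filter (fun p : P => p ≠ 1 ∧ R p.1) with hE
  rw [Finset.card_eq_sum_card_image (fun p : P => Subgroup.zpowers p.1) E]
  have hfib : ∀ K ∈ E.image (fun p : P => Subgroup.zpowers p.1),
      (E.filter (fun p => Subgroup.zpowers p.1 = K)).card = 4 := by
    intro K hK
    obtain ⟨p₀, hp₀, rfl⟩ := Finset.mem_image.1 hK
    rw [hE, Finset.mem_filter] at hp₀
    obtain ⟨-, hp₁, hp₂⟩ := hp₀
    have hp₁' : p₀.1 ≠ 1 := fun e => hp₁ (Subtype.ext e)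
    have ho : ∀ q ∈ P, q ≠ 1 → orderOf q = 5 := by
      intro q hq hq1
      haveI : Fact (Nat.Prime 5) := ⟨by norm_num⟩
      exact orderOf_eq_prime (hexp q hq) hq1
    have hset : (Subtype.val '' ((E.filter (fun p => Subgroup.zpowers p.1 = Subgroup.zpowers p₀.1) : Finset P) : Set P))
        = ((Subgroup.zpowers p₀.1 : Subgroup G) : Set G) \ {1} := by
      ext q
      constructor
      · rintro ⟨p, hp, rfl⟩
        have hp' := Finset.mem_filter.1 (Finset.mem_coe.1 hp)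
        have hp'' := Finset.mem_filter.1 hp'.1
        refine ⟨?_, ?_⟩
        · show p.1 ∈ Subgroup.zpowers p₀.1
          rw [← hp'.2]
          exact Subgroup.mem_zpowers p.1
        · intro e
          exact hp''.2.1 (Subtype.ext e)
      · rintro ⟨hq1, hq2⟩
        have hq1' : q ∈ Subgroup.zpowers p₀.1 := hq1
        have hqP : q ∈ P := (Subgroup.zpowers_le.2 p₀.2) hq1'
        have hq2' : q ≠ 1 := hq2
        refine ⟨⟨q, hqP⟩, ?_, rfl⟩
        apply Finset.mem_coe.2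
        apply Finset.mem_filter.2
        refine ⟨?_, ?_⟩
        · rw [hE]
          apply Finset.mem_filter.2
          refine ⟨Finset.mem_univ _, fun e => hq2' (congrArg Subtype.val e), hR _ _ hp₂ hq1'⟩
        · exact zp_eq (ho q hqP hq2') (ho _ p₀.2 hp₁') hq1'
    have hcard := Set.ncard_image_of_injective
      ((E.filter (fun p => Subgroup.zpowers p.1 = Subgroup.zpowers p₀.1) : Finset P) : Set P)
      (Subtype.val_injective)
    rw [hset, Set.ncard_diff_singleton_of_mem (Subgroup.one_mem _), Set.ncard_coe_finset, ← Nat.card_coe_set_eq] at hcard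
    have hc5 : Nat.card ((Subgroup.zpowers p₀.1 : Subgroup G) : Set G) = 5 := by
      show Nat.card (Subgroup.zpowers p₀.1) = 5
      rw [Nat.card_zpowers, ho _ p₀.2 hp₁']
    rw [hc5] at hcard
    convert hcard.symm using 2
  rw [Finset.sum_congr rfl hfib, Finset.sum_const, smul_eq_mul, mul_comm]

omit h hv₀ hn in
/-- Elements commuting with an element of a class. -/
abbrev RZ (w p : G) : Prop := ∃ u, IsConj w u ∧ Commute u p

omit h hv₀ hn in
theorem RZ_pow {w p q : G} (hp : RZ w p) (hq : q ∈ Subgroup.zpowers p) : RZ w q := by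
  obtain ⟨u, hu, hc⟩ := hp
  obtain ⟨k, rfl⟩ := Subgroup.mem_zpowers_iff.1 hq
  exact ⟨u, hu, hc.zpow_right k⟩

omit h hv₀ hn in
theorem RZ_conj {w p : G} (hp : RZ w p) (c : G) : RZ w (c * p * c⁻¹) := by
  obtain ⟨u, hu, hc⟩ := hp
  exact ⟨c * u * c⁻¹, hu.trans (isConj_iff.2 ⟨c, rfl⟩), cconj hc c⟩

/-- The count of the two types of elements in a Sylow subgroup. -/
theorem counts (P : Sylow 5 G) : (∀ p ∈ (P : Subgroup G), p ≠ 1 → RZ z p ∨ RZ t₀.1 p) ∧
    Nat.card {K : Subgroup G | ∃ p ∈ (P : Subgroup G), p ≠ 1 ∧ RZ z p ∧ K = Subgroup.zpowers p} = 3 := by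
  classical
  haveI := Fintype.ofFinite G
  haveI : Fact (Nat.Prime 5) := ⟨by norm_num⟩
  haveI hSf : Fintype (P : Subgroup G) := Fintype.ofFinite _
  have hS25 : Nat.card (P : Subgroup G) = 25 := card_syl h P
  have hexp : ∀ p ∈ (P : Subgroup G), p ^ 5 = 1 := fun p hp => syl_exp h hv₀ hn P hp
  have ho : ∀ p : (P : Subgroup G), p ≠ 1 → orderOf p.1 = 5 := fun p hp =>
    orderOf_eq_prime (hexp p.1 p.2) (fun e => hp (Subtype.ext e))
  have hempty : ∀ (w x : G), ¬ RZ w x → Nat.card (FF w x) = 0 := by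
    intro w x hr
    rw [Nat.card_eq_zero]
    left
    constructor
    rintro ⟨u, hu1, hu2⟩
    exact hr ⟨u, hu1, hu2⟩
  have s0 := sum_formula (P : Subgroup G) z 315 5 (RZ z) (card_Zc h)
    (fun p hp hr => by
      obtain ⟨u, hu, hc⟩ := hr
      exact (typeZ h hv₀ hn (ho p hp) hu hc).2.1)
    (fun p hp hr => hempty _ _ hr)
  have s1 := sum_formula (P : Subgroup G) t₀.1 2520 15 (RZ t₀.1) (card_Tc h)
    (fun p hp hr => by
      obtain ⟨u, hu, hc⟩ := hr
      exact (typeT h hv₀ hn (ho p hp) hu hc).1)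
    (fun p hp hr => hempty _ _ hr)
  have f0 := card_fiber (P : Subgroup G) hexp (RZ z) (fun p q hp hq => RZ_pow hp hq)
  have f1 := card_fiber (P : Subgroup G) hexp (RZ t₀.1) (fun p q hp hq => RZ_pow hp hq)
  set E₀ := Finset.univ.filter (fun p : (P : Subgroup G) => p ≠ 1 ∧ RZ z p.1) with hE₀
  set E₁ := Finset.univ.filter (fun p : (P : Subgroup G) => p ≠ 1 ∧ RZ t₀.1 p.1) with hE₁
  rw [hS25] at s0 s1
  have hdisj : Disjoint E₀ E₁ := by
    rw [Finset.disjoint_left]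
    intro p hp0 hp1
    have h0 := (Finset.mem_filter.1 hp0).2
    have h1 := (Finset.mem_filter.1 hp1).2
    obtain ⟨u, hu, hc⟩ := h0.2
    have e := (typeZ h hv₀ hn (ho p h0.1) hu hc).2.2
    rw [Nat.card_eq_zero] at e
    rcases e with e | e
    · obtain ⟨u', hu', hc'⟩ := h1.2
      exact e.false ⟨u', hu', hc'⟩
    · exact not_finite_iff_infinite.2 e (Set.toFinite _)
  have hsub : E₀ ∪ E₁ ⊆ Finset.univ.erase (1 : (P : Subgroup G)) := by
    intro p hp
    rcases Finset.mem_union.1 hp with hp | hp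
    · exact Finset.mem_erase.2 ⟨(Finset.mem_filter.1 hp).2.1, Finset.mem_univ _⟩
    · exact Finset.mem_erase.2 ⟨(Finset.mem_filter.1 hp).2.1, Finset.mem_univ _⟩
  have hcardU : (Finset.univ.erase (1 : (P : Subgroup G))).card = 24 := by
    rw [Finset.card_erase_of_mem (Finset.mem_univ _), Finset.card_univ, ← Nat.card_eq_fintype_card, hS25]
  have hle := Finset.card_le_card hsub
  rw [hcardU, Finset.card_union_of_disjoint hdisj] at hle
  have hE12 : E₀.card = 12 ∧ E₁.card = 12 := by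
    rw [f0] at s0 hle ⊢
    rw [f1] at s1 hle ⊢
    omega
  have hU : E₀ ∪ E₁ = Finset.univ.erase (1 : (P : Subgroup G)) := by
    apply Finset.eq_of_subset_of_card_le hsub
    rw [hcardU, Finset.card_union_of_disjoint hdisj, hE12.1, hE12.2]
  constructor
  · intro p hp hp1
    have hm : (⟨p, hp⟩ : (P : Subgroup G)) ∈ E₀ ∪ E₁ := by
      rw [hU]
      exact Finset.mem_erase.2 ⟨fun e => hp1 (congrArg Subtype.val e), Finset.mem_univ _⟩
    rcases Finset.mem_union.1 hm with h0 | h0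
    · exact Or.inl (Finset.mem_filter.1 h0).2.2
    · exact Or.inr (Finset.mem_filter.1 h0).2.2
  · have hset : {K : Subgroup G | ∃ p ∈ (P : Subgroup G), p ≠ 1 ∧ RZ z p ∧ K = Subgroup.zpowers p} =
        ((E₀.image (fun p : (P : Subgroup G) => Subgroup.zpowers p.1) : Finset (Subgroup G)) : Set (Subgroup G)) := by
      ext K
      constructor
      · rintro ⟨p, hp, hp1, hr, rfl⟩
        apply Finset.mem_coe.2
        apply Finset.mem_image.2
        refine ⟨⟨p, hp⟩, ?_, rfl⟩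
        exact Finset.mem_filter.2 ⟨Finset.mem_univ _, fun e => hp1 (congrArg Subtype.val e), hr⟩
      · intro hK
        obtain ⟨p, hp, rfl⟩ := Finset.mem_image.1 (Finset.mem_coe.1 hK)
        have hp' := (Finset.mem_filter.1 hp).2
        exact ⟨p.1, p.2, fun e => hp'.1 (Subtype.ext e), hp'.2, rfl⟩
    rw [Nat.card_coe_set_eq, hset, Set.ncard_coe_finset]
    have := hE12.1
    rw [f0] at this
    omega

omit h hv₀ hn [Finite G] in
theorem mem_norm_of {Γ : Type*} [Group Γ] [Finite Γ] {g x : Γ} (hg : g * x * g⁻¹ ∈ Subgroup.zpowers x) :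
    g ∈ Subgroup.normalizer ((Subgroup.zpowers x : Subgroup Γ) : Set Γ) := by
  have hord : orderOf (g * x * g⁻¹) = orderOf x := (order_conj (isConj_iff.2 ⟨g, rfl⟩)).symm
  have heq : Subgroup.zpowers (g * x * g⁻¹) = Subgroup.zpowers x := by
    apply Subgroup.eq_of_le_of_card_ge (Subgroup.zpowers_le.2 hg)
    rw [Nat.card_zpowers, Nat.card_zpowers, hord]
  rw [Subgroup.mem_normalizer_iff]
  intro y
  constructor
  · intro hy
    obtain ⟨j, rfl⟩ := Subgroup.mem_zpowers_iff.1 hy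
    rw [← conj_zpow]
    exact Subgroup.zpow_mem _ hg j
  · intro hy
    have hy' : g * y * g⁻¹ ∈ Subgroup.zpowers (g * x * g⁻¹) := by
      rw [heq]
      exact hy
    obtain ⟨j, hj⟩ := Subgroup.mem_zpowers_iff.1 hy'
    rw [conj_zpow] at hj
    have e : x ^ j = y := by
      have e2 : g * x ^ j = g * y := by
        have := congrArg (fun w => w * g) hj
        simpa using this
      exact mul_left_cancel e2
    rw [← e]
    exact Subgroup.zpow_mem_zpowers x j

omit h hv₀ hn in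
theorem norm_conj {g x : G} (hg : g ∈ Subgroup.normalizer ((Subgroup.zpowers x : Subgroup G) : Set G)) :
    g * x * g⁻¹ ∈ Subgroup.zpowers x :=
  (Subgroup.mem_normalizer_iff.1 hg x).1 (Subgroup.mem_zpowers x)

omit h hv₀ hn in
/-- Conjugacy of subgroups of order five inside a subgroup with a cyclic Sylow 5-subgroup. -/
theorem syl_conj (S : Subgroup G) (hS : ¬ 25 ∣ Nat.card S) {a b : G} (ha : a ∈ S) (hb : b ∈ S)
    (hoa : orderOf a = 5) (hob : orderOf b = 5) : ∃ s ∈ S, Subgroup.zpowers (s * a * s⁻¹) = Subgroup.zpowers b := by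
  haveI hp5 : Fact (Nat.Prime 5) := ⟨by norm_num⟩
  let a' : S := ⟨a, ha⟩
  let b' : S := ⟨b, hb⟩
  have hoa' : orderOf a' = 5 := (Subgroup.orderOf_mk a ha).trans hoa
  have hob' : orderOf b' = 5 := (Subgroup.orderOf_mk b hb).trans hob
  have hsyl : ∀ s : S, orderOf s = 5 → ∃ P : Sylow 5 S, (P : Subgroup S) = Subgroup.zpowers s := by
    intro s hs
    have hc : Nat.card (Subgroup.zpowers s) = 5 ^ 1 := by
      rw [Nat.card_zpowers, hs]; rfl
    have hpg : IsPGroup 5 (Subgroup.zpowers s) := IsPGroup.of_card hc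
    have hidx : ¬ 5 ∣ (Subgroup.zpowers s).index := by
      intro hd
      apply hS
      have e := Subgroup.card_mul_index (Subgroup.zpowers s)
      rw [hc] at e
      rw [← e]
      exact mul_dvd_mul_left (5 ^ 1) hd
    exact ⟨hpg.toSylow hidx, rfl⟩
  obtain ⟨P₀, hP₀⟩ := hsyl b' hob'
  obtain ⟨P₁, hP₁⟩ := hsyl a' hoa'
  obtain ⟨g, hg⟩ := MulAction.exists_smul_eq S P₁ P₀
  have hmem : b' ∈ (P₀ : Subgroup S) := by
    rw [hP₀]
    exact Subgroup.mem_zpowers b'
  rw [← hg, Sylow.coe_subgroup_smul] at hmem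
  obtain ⟨s, hs, hse⟩ := Subgroup.mem_smul_pointwise_iff_exists _ _ _ |>.1 hmem
  rw [hP₁] at hs
  obtain ⟨k, rfl⟩ := Subgroup.mem_zpowers_iff.1 hs
  have hτe : g.1 * a ^ k * g.1⁻¹ = b := by
    have := congrArg Subtype.val hse
    simpa [a', b', MulAut.smul_def] using this
  refine ⟨g.1, g.2, ?_⟩
  symm
  apply zp_eq hob
  · rw [← order_conj (isConj_iff.2 ⟨g.1, rfl⟩), hoa]
  · rw [← hτe, ← conj_zpow]
    exact Subgroup.zpow_mem_zpowers _ k

omit h hv₀ hn in
theorem map_zp (c x : G) : (Subgroup.zpowers x).map (MulAut.conj c).toMonoidHom = Subgroup.zpowers (c * x * c⁻¹) := by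
  rw [MonoidHom.map_zpowers]
  rfl

/-- The order of the normalizer for an element of the second type. -/
theorem card_norm {x : G} (hxz : Commute x z) (hox : orderOf x = 5) :
    Nat.card (Subgroup.normalizer ((Subgroup.zpowers x : Subgroup G) : Set G)) = 100 := by
  classical
  haveI hp5 : Fact (Nat.Prime 5) := ⟨by norm_num⟩
  obtain ⟨r1, r2, r3⟩ := T0_main h hv₀ hn hxz hox
  set N₀ := Subgroup.normalizer ((Subgroup.zpowers x : Subgroup G) : Set G) with hN₀
  set T₀ : Set G := {v | v * v = 1 ∧ v ≠ 1 ∧ Commute v x} with hT₀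
  have hHN : HH x ≤ N₀ := by
    intro d hd
    apply mem_norm_of
    rw [conj_eq_of_comm (mem_HH.1 hd)]
    exact Subgroup.mem_zpowers x
  have hh1 : ∀ g ∈ N₀, g * z * g⁻¹ ∈ T₀ := by
    intro g hg
    refine ⟨?_, ?_, ?_⟩
    · calc g * z * g⁻¹ * (g * z * g⁻¹) = g * (z * z) * g⁻¹ := by group
        _ = 1 := by rw [h.zz]; group
    · intro e
      apply h.z1
      have e2 : z = g⁻¹ * (g * z * g⁻¹) * g := by group
      rw [e2, e]
      group
    · have h2 : g⁻¹ * x * g⁻¹⁻¹ ∈ Subgroup.zpowers x := norm_conj (N₀.inv_mem hg)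
      obtain ⟨k, hk⟩ := Subgroup.mem_zpowers_iff.1 h2
      have h3 : Commute z (x ^ k) := hxz.symm.zpow_right k
      rw [hk] at h3
      have h4 := cconj h3 g
      have e3 : g * (g⁻¹ * x * g⁻¹⁻¹) * g⁻¹ = x := by group
      rwa [e3] at h4
  have hh2 : ∀ y ∈ T₀, ∃ g ∈ HH x, g * z * g⁻¹ = y := fun y hy => r2 y hy.1 hy.2.1 hy.2.2
  have horb1 := orbit_card (HH x) z T₀ (fun g hg => hh1 g (hHN hg)) hh2
  have horb2 := orbit_card N₀ z T₀ hh1 (fun y hy => by
    obtain ⟨g, hg, e⟩ := hh2 y hy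
    exact ⟨g, hHN hg, e⟩)
  have hT5 : Nat.card T₀ = 5 := r3
  rw [hT5, r1] at horb1
  rw [hT5] at horb2
  set NH := N₀ ⊓ Subgroup.centralizer ({z} : Set G) with hNH
  have hc10 : Nat.card ↥(HH x ⊓ Subgroup.centralizer ({z} : Set G)) = 10 := by omega
  -- the orbit of `x`
  let T' : Set G := {y | ∃ g ∈ NH, g * x * g⁻¹ = y}
  have horb3 := orbit_card NH x T' (fun g hg => ⟨g, hg, rfl⟩) (fun y hy => hy)
  have hinf : NH ⊓ Subgroup.centralizer ({x} : Set G) = HH x ⊓ Subgroup.centralizer ({z} : Set G) := by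
    apply le_antisymm
    · rintro g ⟨⟨-, h2⟩, h3⟩
      exact ⟨h3, h2⟩
    · rintro g ⟨h2, h3⟩
      exact ⟨⟨hHN h2, h3⟩, h2⟩
  rw [hinf, hc10] at horb3
  have hT'4 : Nat.card T' ≤ 4 := by
    have hsub : T' ⊆ ((Subgroup.zpowers x : Subgroup G) : Set G) \ {1} := by
      rintro y ⟨g, hg, rfl⟩
      refine ⟨norm_conj hg.1, ?_⟩
      intro e
      have hx1 : x ≠ 1 := by
        rintro rfl
        simp at hox
      apply hx1
      have e2 : x = g⁻¹ * (g * x * g⁻¹) * g := by group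
      rw [e2, e]
      group
    have h1 := Set.ncard_le_ncard hsub (Set.toFinite _)
    rw [Set.ncard_diff_singleton_of_mem (Subgroup.one_mem _), ← Nat.card_coe_set_eq, ← Nat.card_coe_set_eq] at h1
    have hc5 : Nat.card ((Subgroup.zpowers x : Subgroup G) : Set G) = 5 := by
      show Nat.card (Subgroup.zpowers x) = 5
      rw [Nat.card_zpowers, hox]
    rw [hc5] at h1
    exact h1
  have hT'1 : 0 < Nat.card T' := by
    have hpos : 0 < Nat.card NH := Nat.card_pos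
    rw [← horb3] at hpos
    exact Nat.pos_of_mul_pos_right hpos
  -- the Sylow count in the first centralizer
  let x₀ : HH z := ⟨x, mem_HH.2 hxz⟩
  have hx₀o : orderOf x₀ = 5 := (Subgroup.orderOf_mk x _).trans hox
  have hC : Nat.card (HH z) = 1920 := h.b.card_C
  have hcz : Nat.card (Subgroup.zpowers x₀) = 5 ^ 1 := by
    rw [Nat.card_zpowers, hx₀o]; rfl
  have hpg : IsPGroup 5 (Subgroup.zpowers x₀) := IsPGroup.of_card hcz
  have hidx : ¬ 5 ∣ (Subgroup.zpowers x₀).index := by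
    have e := Subgroup.card_mul_index (Subgroup.zpowers x₀)
    rw [hcz, hC] at e
    have : (Subgroup.zpowers x₀).index = 384 := by omega
    rw [this]
    norm_num
  let S : Sylow 5 (HH z) := hpg.toSylow hidx
  have hScoe : (S : Subgroup (HH z)) = Subgroup.zpowers x₀ := rfl
  have hmod := card_sylow_modEq_one 5 (HH z)
  have hindex := S.card_eq_index_normalizer
  rw [hindex] at hmod
  have hmulN := Subgroup.card_mul_index (Subgroup.normalizer ((S : Subgroup (HH z)) : Set (HH z)))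
  have hcardNN : Nat.card (Subgroup.normalizer ((S : Subgroup (HH z)) : Set (HH z))) = Nat.card NH := by
    rw [hScoe]
    apply Nat.card_congr
    refine ⟨fun g => ⟨g.1.1, ?_, g.1.2⟩, fun g => ⟨⟨g.1, g.2.2⟩, ?_⟩, fun g => rfl, fun g => rfl⟩
    · have h1 : g.1 * x₀ * g.1⁻¹ ∈ Subgroup.zpowers x₀ := norm_conj g.2
      apply mem_norm_of
      obtain ⟨k, hk⟩ := Subgroup.mem_zpowers_iff.1 h1
      refine Subgroup.mem_zpowers_iff.2 ⟨k, ?_⟩
      have := congrArg Subtype.val hk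
      simpa [x₀] using this
    · apply mem_norm_of
      have h1 : g.1 * x * g.1⁻¹ ∈ Subgroup.zpowers x := norm_conj g.2.1
      obtain ⟨k, hk⟩ := Subgroup.mem_zpowers_iff.1 h1
      refine Subgroup.mem_zpowers_iff.2 ⟨k, ?_⟩
      apply Subtype.ext
      simpa [x₀] using hk
  rw [hcardNN, hC] at hmulN
  -- arithmetic
  have hNH20 : Nat.card NH = 20 := by
    have hmod' : (Subgroup.normalizer ((S : Subgroup (HH z)) : Set (HH z))).index % 5 = 1 := hmod
    generalize (Subgroup.normalizer ((S : Subgroup (HH z)) : Set (HH z))).index = i at hmod' hmulN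
    generalize Nat.card T' = n at horb3 hT'4 hT'1
    rw [← horb3] at hmulN ⊢
    interval_cases n <;> omega
  rw [hNH20] at horb2
  omega

/-- Elements of a Sylow subgroup of the second type. -/
theorem mem_P_of_comm (P : Sylow 5 G) {p : G} (hp : p ∈ (P : Subgroup G)) (hp1 : p ≠ 1) (hr : RZ z p)
    {y : G} (hy : Commute y p) (h25 : y ^ 25 = 1) : y ∈ (P : Subgroup G) := by
  haveI : Fact (Nat.Prime 5) := ⟨by norm_num⟩
  have hop : orderOf p = 5 := orderOf_eq_prime (syl_exp h hv₀ hn P hp) hp1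
  obtain ⟨u, hu, hc⟩ := hr
  have hc50 := (typeZ h hv₀ hn hop hu hc).1
  have hle : (P : Subgroup G) ≤ HH p := fun q hq => mem_HH.2 (syl_abel h P hq hp)
  have hidx : ((P : Subgroup G).subgroupOf (HH p)).index = 2 := by
    have e := Subgroup.card_mul_index ((P : Subgroup G).subgroupOf (HH p))
    have e2 : Nat.card ((P : Subgroup G).subgroupOf (HH p)) = 25 := by
      rw [← card_syl h P]
      exact Nat.card_congr (Subgroup.subgroupOfEquivOfLe hle).toEquiv
    rw [e2, hc50] at e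
    omega
  have hsq := Subgroup.sq_mem_of_index_two hidx (⟨y, mem_HH.2 hy⟩ : HH p)
  have hsq' : y ^ 2 ∈ (P : Subgroup G) := hsq
  have e : y = y ^ 25 * ((y ^ 2) ^ 12)⁻¹ := by group
  rw [e, h25, one_mul]
  exact Subgroup.inv_mem _ (Subgroup.pow_mem _ hsq' 12)

/-- A conjugation carrying one subgroup of the second type in a Sylow subgroup to another one normalizes it. -/
theorem key_norm (P : Sylow 5 G) {p₁ p₂ g : G} (hp₁ : p₁ ∈ (P : Subgroup G)) (hp₂ : p₂ ∈ (P : Subgroup G))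
    (hp₁1 : p₁ ≠ 1) (hp₂1 : p₂ ≠ 1) (hr₁ : RZ z p₁) (hr₂ : RZ z p₂)
    (hg : Subgroup.zpowers (g * p₁ * g⁻¹) = Subgroup.zpowers p₂) :
    g ∈ Subgroup.normalizer (((P : Subgroup G) : Subgroup G) : Set G) := by
  haveI : Fact (Nat.Prime 5) := ⟨by norm_num⟩
  have hop₁ : orderOf p₁ = 5 := orderOf_eq_prime (syl_exp h hv₀ hn P hp₁) hp₁1
  have hfor : ∀ (g : G) (p₁ p₂ : G), p₁ ∈ (P : Subgroup G) → p₂ ∈ (P : Subgroup G) → p₂ ≠ 1 → RZ z p₂ →
      Subgroup.zpowers (g * p₁ * g⁻¹) = Subgroup.zpowers p₂ → ∀ q ∈ (P : Subgroup G), g * q * g⁻¹ ∈ (P : Subgroup G) := by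
    intro g p₁ p₂ hp₁ hp₂ hp₂1 hr₂ hg q hq
    apply mem_P_of_comm h hv₀ hn P hp₂ hp₂1 hr₂
    · have hm : p₂ ∈ Subgroup.zpowers (g * p₁ * g⁻¹) := by
        rw [hg]
        exact Subgroup.mem_zpowers p₂
      obtain ⟨k, rfl⟩ := Subgroup.mem_zpowers_iff.1 hm
      rw [conj_zpow]
      exact cconj ((syl_abel h P hq hp₁).zpow_right k) g
    · have h25 : q ^ 25 = 1 := by
        have := pow_card_eq_one' (x := (⟨q, hq⟩ : P))
        rw [show Nat.card ↥P = 25 from card_syl h P] at this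
        exact congrArg Subtype.val this
      rw [conj_pow, h25]
      group
  rw [Subgroup.mem_normalizer_iff]
  intro q
  constructor
  · exact hfor g p₁ p₂ hp₁ hp₂ hp₂1 hr₂ hg q
  · intro hq
    have h2 : Subgroup.zpowers (g⁻¹ * p₂ * g⁻¹⁻¹) = Subgroup.zpowers p₁ := by
      have hop₂ : orderOf p₂ = 5 := orderOf_eq_prime (syl_exp h hv₀ hn P hp₂) hp₂1
      have e1 := map_zp g⁻¹ p₂
      rw [← hg, map_zp] at e1
      rw [← e1]
      congr 1
      group
    have := hfor g⁻¹ p₂ p₁ hp₂ hp₁ hp₁1 hr₁ h2 _ hq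
    have e : g⁻¹ * (g * q * g⁻¹) * g⁻¹⁻¹ = q := by group
    rwa [e] at this

omit h hv₀ hn in
/-- Conjugacy of the subgroups of order five commuting with an element of a given class. -/
theorem conj_typed {w : G} (hw : ∀ {x y : G}, Commute x w → Commute y w → orderOf x = 5 → orderOf y = 5 →
      ∃ s, Commute s w ∧ Subgroup.zpowers (s * x * s⁻¹) = Subgroup.zpowers y)
    {p₁ p₂ : G} (hp₁ : orderOf p₁ = 5) (hp₂ : orderOf p₂ = 5) (hr₁ : RZ w p₁) (hr₂ : RZ w p₂) :
    ∃ g : G, Subgroup.zpowers (g * p₁ * g⁻¹) = Subgroup.zpowers p₂ := by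
  obtain ⟨u₁, hu₁, hc₁⟩ := hr₁
  obtain ⟨u₂, hu₂, hc₂⟩ := hr₂
  obtain ⟨c₁, rfl⟩ := isConj_iff.1 hu₁
  obtain ⟨c₂, rfl⟩ := isConj_iff.1 hu₂
  have h1 := cconj hc₁ c₁⁻¹
  have h2 := cconj hc₂ c₂⁻¹
  have e1 : c₁⁻¹ * (c₁ * w * c₁⁻¹) * c₁⁻¹⁻¹ = w := by group
  have e2 : c₂⁻¹ * (c₂ * w * c₂⁻¹) * c₂⁻¹⁻¹ = w := by group
  rw [e1] at h1
  rw [e2] at h2
  have ho1 : orderOf (c₁⁻¹ * p₁ * c₁⁻¹⁻¹) = 5 := by
    rw [← order_conj (isConj_iff.2 ⟨c₁⁻¹, rfl⟩), hp₁]
  have ho2 : orderOf (c₂⁻¹ * p₂ * c₂⁻¹⁻¹) = 5 := by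
    rw [← order_conj (isConj_iff.2 ⟨c₂⁻¹, rfl⟩), hp₂]
  obtain ⟨s, -, hs⟩ := hw h1.symm h2.symm ho1 ho2
  refine ⟨c₂ * s * c₁⁻¹, ?_⟩
  have e3 : (c₂ * s * c₁⁻¹) * p₁ * (c₂ * s * c₁⁻¹)⁻¹ = c₂ * (s * (c₁⁻¹ * p₁ * c₁⁻¹⁻¹) * s⁻¹) * c₂⁻¹ := by group
  have e4 : p₂ = c₂ * (c₂⁻¹ * p₂ * c₂⁻¹⁻¹) * c₂⁻¹ := by group
  rw [e3]
  conv_rhs => rw [e4]
  rw [← map_zp c₂ (s * (c₁⁻¹ * p₁ * c₁⁻¹⁻¹) * s⁻¹), hs, map_zp]

omit h hv₀ hn in
/-- Orbit counting for the conjugation action on subgroups. -/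
theorem orbit_subgroup (K K₀ : Subgroup G) (S : Set (Subgroup G))
    (h1 : ∀ g ∈ K, K₀.map (MulAut.conj g).toMonoidHom ∈ S)
    (h2 : ∀ s ∈ S, ∃ g ∈ K, K₀.map (MulAut.conj g).toMonoidHom = s) :
    Nat.card S * Nat.card ↥(K ⊓ Subgroup.normalizer ((K₀ : Subgroup G) : Set G)) = Nat.card K := by
  letI : MulAction K (Subgroup G) :=
    { smul := fun g y => y.map (MulAut.conj g.1).toMonoidHom
      one_smul := fun y => by
        show y.map (MulAut.conj (1 : G)).toMonoidHom = y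
        ext q
        simp
      mul_smul := fun g g' y => by
        show y.map (MulAut.conj (g.1 * g'.1)).toMonoidHom =
          (y.map (MulAut.conj g'.1).toMonoidHom).map (MulAut.conj g.1).toMonoidHom
        rw [Subgroup.map_map]
        congr 1
        ext q
        simp }
  have hsmul : ∀ (g : K) (y : Subgroup G), g • y = y.map (MulAut.conj g.1).toMonoidHom := fun _ _ => rfl
  have e1 : MulAction.orbit K K₀ = S := by
    ext y
    constructor
    · rintro ⟨g, rfl⟩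
      exact h1 g.1 g.2
    · intro hy
      obtain ⟨g, hg, rfl⟩ := h2 y hy
      exact ⟨⟨g, hg⟩, rfl⟩
  have e2 := MulAction.index_stabilizer K K₀
  have e3 := Subgroup.card_mul_index (MulAction.stabilizer K K₀)
  rw [e2, e1, ← Nat.card_coe_set_eq] at e3
  have hkey : ∀ g : G, K₀.map (MulAut.conj g).toMonoidHom = K₀ ↔ g ∈ Subgroup.normalizer ((K₀ : Subgroup G) : Set G) := by
    intro g
    rw [Subgroup.mem_normalizer_iff]
    constructor
    · intro e y
      constructor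
      · intro hy
        rw [← e]
        exact ⟨y, hy, rfl⟩
      · intro hy
        rw [← e] at hy
        obtain ⟨y', hy', e'⟩ := hy
        have e2 : g * y' * g⁻¹ = g * y * g⁻¹ := e'
        have e3 : y' = y := by
          have e4 : g * y' = g * y := by
            have := congrArg (fun w => w * g) e2
            simpa using this
          exact mul_left_cancel e4
        rwa [← e3]
    · intro hg
      ext y
      constructor
      · rintro ⟨y', hy', rfl⟩
        exact (hg y').1 hy'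
      · intro hy
        refine ⟨g⁻¹ * y * g, ?_, ?_⟩
        · show g⁻¹ * y * g ∈ K₀
          rw [hg]
          have e : g * (g⁻¹ * y * g) * g⁻¹ = y := by group
          rwa [e]
        · show g * (g⁻¹ * y * g) * g⁻¹ = y
          group
  have e4 : Nat.card ↥(K ⊓ Subgroup.normalizer ((K₀ : Subgroup G) : Set G)) = Nat.card (MulAction.stabilizer K K₀) := by
    apply Nat.card_congr
    refine ⟨fun y => ⟨⟨y.1, y.2.1⟩, (hkey y.1).2 y.2.2⟩, fun y => ⟨y.1.1, y.1.2, (hkey y.1.1).1 y.2⟩,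
      fun y => rfl, fun y => rfl⟩
  rw [e4, mul_comm]
  exact e3

/-- The order of the normalizer of a Sylow 5-subgroup. -/
theorem card_normP (P : Sylow 5 G) :
    Nat.card (Subgroup.normalizer (((P : Subgroup G) : Subgroup G) : Set G)) = 300 := by
  haveI : Fact (Nat.Prime 5) := ⟨by norm_num⟩
  have hC : Nat.card (HH z) = 1920 := h.b.card_C
  obtain ⟨hall, hc3⟩ := counts h hv₀ hn P
  set S : Set (Subgroup G) := {K : Subgroup G | ∃ p ∈ (P : Subgroup G), p ≠ 1 ∧ RZ z p ∧ K = Subgroup.zpowers p} with hS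
  obtain ⟨K₁, p₀, hp₀, hp₀1, hr₀, -⟩ : S.Nonempty := by
    rw [← Set.nonempty_coe_sort, ← not_isEmpty_iff]
    intro he
    rw [Nat.card_of_isEmpty] at hc3
    omega
  have hord : ∀ q ∈ (P : Subgroup G), q ≠ 1 → orderOf q = 5 := fun q hq hq1 =>
    orderOf_eq_prime (syl_exp h hv₀ hn P hq) hq1
  have hw : ∀ {x y : G}, Commute x z → Commute y z → orderOf x = 5 → orderOf y = 5 →
      ∃ s, Commute s z ∧ Subgroup.zpowers (s * x * s⁻¹) = Subgroup.zpowers y := by
    intro x y hx hy hox hoy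
    obtain ⟨s, hs, e⟩ := syl_conj (HH z) (by rw [hC]; norm_num) (mem_HH.2 hx) (mem_HH.2 hy) hox hoy
    exact ⟨s, mem_HH.1 hs, e⟩
  set K₀ := Subgroup.zpowers p₀ with hK₀
  set N := Subgroup.normalizer (((P : Subgroup G) : Subgroup G) : Set G) with hN
  have e := orbit_subgroup N K₀ S
    (fun g hg => by
      rw [hK₀, map_zp]
      refine ⟨g * p₀ * g⁻¹, (Subgroup.mem_normalizer_iff.1 hg p₀).1 hp₀, ?_, RZ_conj hr₀ g, rfl⟩
      intro e1
      apply hp₀1
      have e2 : p₀ = g⁻¹ * (g * p₀ * g⁻¹) * g := by group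
      rw [e2, e1]
      group)
    (fun s hs => by
      obtain ⟨p₁, hp₁, hp₁1, hr₁, rfl⟩ := hs
      obtain ⟨g, hg⟩ := conj_typed hw (hord p₀ hp₀ hp₀1) (hord p₁ hp₁ hp₁1) hr₀ hr₁
      refine ⟨g, key_norm h hv₀ hn P hp₀ hp₁ hp₀1 hp₁1 hr₀ hr₁ hg, ?_⟩
      rw [hK₀, map_zp, hg])
  have hinf : N ⊓ Subgroup.normalizer ((K₀ : Subgroup G) : Set G) = Subgroup.normalizer ((K₀ : Subgroup G) : Set G) := by
    apply inf_eq_right.2
    intro g hg
    apply key_norm h hv₀ hn P hp₀ hp₀ hp₀1 hp₀1 hr₀ hr₀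
    apply zp_eq
    · rw [← order_conj (isConj_iff.2 ⟨g, rfl⟩), hord p₀ hp₀ hp₀1]
    · exact hord p₀ hp₀ hp₀1
    · exact norm_conj hg
  have hn100 : Nat.card (Subgroup.normalizer ((K₀ : Subgroup G) : Set G)) = 100 := by
    obtain ⟨u, hu, hc⟩ := hr₀
    obtain ⟨c, rfl⟩ := isConj_iff.1 hu
    have hc' := cconj hc c⁻¹
    have e1 : c⁻¹ * (c * z * c⁻¹) * c⁻¹⁻¹ = z := by group
    rw [e1] at hc'
    set x := c⁻¹ * p₀ * c⁻¹⁻¹ with hx
    have hpx : p₀ = c * x * c⁻¹ := by rw [hx]; group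
    have hox : orderOf x = 5 := by
      rw [← order_conj (isConj_iff.2 ⟨c⁻¹, rfl⟩)]
      exact hord p₀ hp₀ hp₀1
    have hm := card_norm h hv₀ hn hc'.symm hox
    have e2 : K₀ = (Subgroup.zpowers x).map (MulAut.conj c).toMonoidHom := by
      rw [map_zp, ← hpx]
    rw [e2]
    have e3 := Subgroup.map_equiv_normalizer_eq (Subgroup.zpowers x) (MulAut.conj c)
    rw [← e3, Subgroup.card_map_of_injective (MulAut.conj c).injective, hm]
  rw [hinf, hn100, hc3] at e
  omega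

/-- The final statement. -/
theorem main_five (P : Sylow 5 G) : Subgroup.centralizer ((P : Subgroup G) : Set G) = P ∧ Nat.card P = 25 ∧
    Nat.card (Subgroup.normalizer ((P : Subgroup G) : Set G)) = 300 ∧
    ∃ X Y : Subgroup G, Nat.card X = 5 ∧ Nat.card Y = 5 ∧ (∀ g : G, X.map (MulAut.conj g).toMonoidHom ≠ Y) ∧
      ∀ W : Subgroup G, Nat.card W = 5 → ∃ g : G, W.map (MulAut.conj g).toMonoidHom = X ∨ W.map (MulAut.conj g).toMonoidHom = Y := by
  haveI : Fact (Nat.Prime 5) := ⟨by norm_num⟩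
  refine ⟨cent_syl h hv₀ hn P, card_syl h P, card_normP h hv₀ hn P, ?_⟩
  obtain ⟨x₀, hx₀z, hx₀o⟩ := exists_x0 h
  obtain ⟨x₁, hx₁L, hx₁o⟩ := exists_x1 h
  have hC : Nat.card (HH z) = 1920 := h.b.card_C
  have hL : Nat.card (HH t₀.1) = 240 := card_Λ h.ct (card15 h) h.bL_mem
  have hw0 : ∀ {x y : G}, Commute x z → Commute y z → orderOf x = 5 → orderOf y = 5 →
      ∃ s, Commute s z ∧ Subgroup.zpowers (s * x * s⁻¹) = Subgroup.zpowers y := by
    intro x y hx hy hox hoy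
    obtain ⟨s, hs, e⟩ := syl_conj (HH z) (by rw [hC]; norm_num) (mem_HH.2 hx) (mem_HH.2 hy) hox hoy
    exact ⟨s, mem_HH.1 hs, e⟩
  have hw1 : ∀ {x y : G}, Commute x t₀.1 → Commute y t₀.1 → orderOf x = 5 → orderOf y = 5 →
      ∃ s, Commute s t₀.1 ∧ Subgroup.zpowers (s * x * s⁻¹) = Subgroup.zpowers y := by
    intro x y hx hy hox hoy
    obtain ⟨s, hs, e⟩ := syl_conj (HH t₀.1) (by rw [hL]; norm_num) (mem_HH.2 hx) (mem_HH.2 hy) hox hoy
    exact ⟨s, mem_HH.1 hs, e⟩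
  refine ⟨Subgroup.zpowers x₀, Subgroup.zpowers x₁, ?_, ?_, ?_, ?_⟩
  · rw [Nat.card_zpowers, hx₀o]
  · rw [Nat.card_zpowers, hx₁o]
  · intro g e
    rw [map_zp] at e
    have hm : x₁ ∈ Subgroup.zpowers (g * x₀ * g⁻¹) := by
      rw [e]
      exact Subgroup.mem_zpowers x₁
    obtain ⟨k, rfl⟩ := Subgroup.mem_zpowers_iff.1 hm
    have hc : Commute (g * z * g⁻¹) (g * x₀ * g⁻¹) := cconj hx₀z.symm g
    exact T1_no_z h hv₀ hn hx₁L hx₁o (isConj_iff.2 ⟨g, rfl⟩) (hc.zpow_right k)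
  · intro W hW
    -- a generator
    have hcyc : IsCyclic W := isCyclic_of_prime_card hW
    obtain ⟨w', hw'⟩ := IsCyclic.exists_generator (α := W)
    have howg : orderOf w' = 5 := by
      rw [orderOf_eq_card_of_forall_mem_zpowers hw', hW]
    have how : orderOf w'.1 = 5 := (Subgroup.orderOf_coe w').trans howg
    have hWe : W = Subgroup.zpowers w'.1 := by
      symm
      apply Subgroup.eq_of_le_of_card_ge (Subgroup.zpowers_le.2 w'.2)
      rw [hW, Nat.card_zpowers, how]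
    rw [hWe]
    set w := w'.1 with hwdef
    obtain ⟨c, hc⟩ := conj_into_syl how P
    have hop : orderOf (c * w * c⁻¹) = 5 := by
      rw [← order_conj (isConj_iff.2 ⟨c, rfl⟩), how]
    have hp1 : c * w * c⁻¹ ≠ 1 := by
      intro e
      rw [e] at hop
      simp at hop
    obtain ⟨hall, -⟩ := counts h hv₀ hn P
    rcases hall _ hc hp1 with hr | hr
    · obtain ⟨g, hg⟩ := conj_typed hw0 hop hx₀o hr ⟨z, IsConj.refl z, hx₀z.symm⟩
      refine ⟨g * c, Or.inl ?_⟩
      rw [map_zp, ← hg]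
      congr 1
      group
    · obtain ⟨g, hg⟩ := conj_typed hw1 hop hx₁o hr ⟨t₀.1, IsConj.refl _, (mem_HH.1 hx₁L).symm⟩
      refine ⟨g * c, Or.inr ?_⟩
      rw [map_zp, ← hg]
      congr 1
      group

end Cfsg.Agent.Lib.HJFiveB
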