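import Mathlib
import Cfsg.Agent.Lib.HJFiveB

set_option autoImplicit false
set_option linter.all false

namespace Cfsg.Agent.Lib.HJSevenA

open Cfsg.Agent.Lib.CITFour Cfsg.Agent.Lib.CITFive Cfsg.Agent.Lib.HJFive
open Cfsg.Agent.Lib.CITFour.CT

section DDsec

variable {Γ : Type*} [Group Γ] [Finite Γ]

/-- Involutions of the group. -/
abbrev Inv (Γ : Type*) [Group Γ] : Set Γ := {v | v * v = 1 ∧ v ≠ 1}

omit [Finite Γ] in
theorem inv_conj : ∀ u ∈ Inv Γ, ∀ g : Γ, g * u * g⁻¹ ∈ Inv Γ := by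
  rintro u ⟨h1, h2⟩ g
  refine ⟨?_, ?_⟩
  · calc g * u * g⁻¹ * (g * u * g⁻¹) = g * (u * u) * g⁻¹ := by group
      _ = 1 := by rw [h1]; group
  · intro e
    apply h2
    have e2 : u = g⁻¹ * (g * u * g⁻¹) * g := by group
    rw [e2, e]
    group

omit [Finite Γ] in
theorem five_le (S : Set Γ) (hS : S.Finite) {a1 a2 a3 a4 a5 : Γ} (h1 : a1 ∈ S) (h2 : a2 ∈ S) (h3 : a3 ∈ S)
    (h4 : a4 ∈ S) (h5 : a5 ∈ S) (h12 : a1 ≠ a2) (h13 : a1 ≠ a3) (h14 : a1 ≠ a4) (h15 : a1 ≠ a5)
    (h23 : a2 ≠ a3) (h24 : a2 ≠ a4) (h25 : a2 ≠ a5) (h34 : a3 ≠ a4) (h35 : a3 ≠ a5) (h45 : a4 ≠ a5) :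
    5 ≤ S.ncard := by
  classical
  have hs : ({a1, a2, a3, a4, a5} : Finset Γ).card = 5 := by
    rw [Finset.card_insert_of_notMem (by simp [h12, h13, h14, h15]),
      Finset.card_insert_of_notMem (by simp [h23, h24, h25]),
      Finset.card_insert_of_notMem (by simp [h34, h35]),
      Finset.card_insert_of_notMem (by simp [h45]), Finset.card_singleton]
  have hsub : (({a1, a2, a3, a4, a5} : Finset Γ) : Set Γ) ⊆ S := by
    intro w hw
    simp only [Finset.coe_insert, Finset.coe_singleton, Set.mem_insert_iff, Set.mem_singleton_iff] at hw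
    rcases hw with rfl | rfl | rfl | rfl | rfl <;> assumption
  have := Set.ncard_le_ncard hsub hS
  rwa [Set.ncard_coe_finset, hs] at this

/-- Data at an involution. -/
structure TD (c a : Γ) (T : Subgroup Γ) : Prop where
  card8 : Nat.card T = 8
  aT : a ∈ T
  cT : ∀ x ∈ T, Commute x a
  sqT : ∀ x ∈ T, x * x = 1 ∨ x * x = a
  cover : ∀ g, Commute g a → ∃ x ∈ T, ∃ k : ℕ, g = x * c ^ k
  inv4 : Nat.card {x : Γ // x ∈ T ∧ x * x = 1 ∧ x ≠ 1 ∧ x ≠ a} = 4

/-- The central extension of a group with dihedral involution centralizers. -/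
structure DD (c : Γ) : Prop where
  c3 : c ^ 3 = 1
  c1 : c ≠ 1
  cc : ∀ g, Commute g c
  ex : ∀ a, a * a = 1 → a ≠ 1 → ∃ T, TD c a T

variable {c a : Γ} {T : Subgroup Γ}

omit [Finite Γ] in
theorem pow_three_eq (y : Γ) : y ^ 3 = y * (y * y) := by
  simp only [pow_succ, pow_zero, one_mul, mul_assoc]

theorem TD.pow8 (ht : TD c a T) {x : Γ} (hx : x ∈ T) : x ^ 8 = 1 := by
  have := pow_card_eq_one' (x := (⟨x, hx⟩ : T))
  rw [ht.card8] at this
  exact congrArg Subtype.val this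

theorem DD.mem_T (h : DD c) (ht : TD c a T) (haa : a * a = 1) {u : Γ} (huu : u * u = 1)
    (hc : Commute u a) : u ∈ T := by
  obtain ⟨x, hx, k, rfl⟩ := ht.cover u hc
  set y := c ^ k with hy
  have hy3 : y * (y * y) = 1 := by
    rw [← pow_three_eq, hy, ← pow_mul, mul_comm, pow_mul, h.c3, one_pow]
  have hyc : ∀ g, Commute g y := fun g => (h.cc g).pow_right k
  have e1 : (x * y) * (x * y) = (x * x) * (y * y) := by
    calc (x * y) * (x * y) = x * (y * x) * y := by group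
      _ = x * (x * y) * y := by rw [(hyc x).eq.symm]
      _ = _ := by group
  rw [e1] at huu
  have hy1 : y = 1 := by
    rcases ht.sqT x hx with e | e
    · rw [e, one_mul] at huu
      rw [huu, mul_one] at hy3
      exact hy3
    · rw [e] at huu
      have e2 : y * y = a := by
        have := eq_inv_of_mul_eq_one_right huu
        rw [this]
        exact inv_eq_of_mul_eq_one_left haa
      rw [e2] at hy3
      have hai : a⁻¹ = a := inv_eq_of_mul_eq_one_left haa
      have hya : y = a := by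
        have := eq_inv_of_mul_eq_one_left hy3
        rw [this, hai]
      rw [hya, haa] at e2
      rw [hya, ← e2]
  rw [hy1, mul_one]
  exact hx

theorem TD.noncomm (ht : TD c a T) (haa : a * a = 1) (ha1 : a ≠ 1) {x : Γ} (hx : x ∈ T)
    (hxx : x * x = 1) (hx1 : x ≠ 1) (hxa : x ≠ a) :
    ∃ y ∈ T, y * y = 1 ∧ y ≠ 1 ∧ y ≠ a ∧ ¬ Commute x y := by
  set I : Set Γ := {y | y ∈ T ∧ y * y = 1 ∧ y ≠ 1 ∧ y ≠ a} with hI
  have hIc : I.ncard = 4 := by
    rw [← Nat.card_coe_set_eq]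
    exact ht.inv4
  have hai : a⁻¹ = a := inv_eq_of_mul_eq_one_left haa
  have hsm : ∀ y ∈ T, y * y = 1 → y ≠ 1 → y ≠ a → a * y ∈ I := by
    intro y hy hyy hy1 hya
    have hc : a * y = y * a := (ht.cT y hy).eq.symm
    refine ⟨T.mul_mem ht.aT hy, ?_, ?_, ?_⟩
    · calc (a * y) * (a * y) = a * (y * a) * y := by group
        _ = a * (a * y) * y := by rw [hc]
        _ = (a * a) * (y * y) := by group
        _ = 1 := by rw [haa, hyy, one_mul]
    · intro e
      apply hya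
      have := eq_inv_of_mul_eq_one_right e
      rw [this, hai]
    · intro e
      exact hy1 (mul_eq_left.1 e)
  have hxI : x ∈ I := ⟨hx, hxx, hx1, hxa⟩
  have haxI := hsm x hx hxx hx1 hxa
  obtain ⟨y, hyI, hyn⟩ : ∃ y ∈ I, y ∉ ({x, a * x} : Set Γ) := by
    apply Set.exists_mem_notMem_of_ncard_lt_ncard _ (Set.toFinite _)
    rw [hIc]
    have := Set.ncard_insert_le x ({a * x} : Set Γ)
    rw [Set.ncard_singleton] at this
    omega
  simp only [Set.mem_insert_iff, Set.mem_singleton_iff, not_or] at hyn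
  obtain ⟨hyx, hyax⟩ := hyn
  obtain ⟨hy, hyy, hy1, hya⟩ := hyI
  refine ⟨y, hy, hyy, hy1, hya, ?_⟩
  intro hcxy
  have hxi : x⁻¹ = x := inv_eq_of_mul_eq_one_left hxx
  have hcax : a * x = x * a := (ht.cT x hx).eq.symm
  have hcay : a * y = y * a := (ht.cT y hy).eq.symm
  have hayI := hsm y hy hyy hy1 hya
  have hxyI : x * y ∈ I := by
    refine ⟨T.mul_mem hx hy, ?_, ?_, ?_⟩
    · calc (x * y) * (x * y) = x * (y * x) * y := by group
        _ = x * (x * y) * y := by rw [hcxy.eq.symm]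
        _ = (x * x) * (y * y) := by group
        _ = 1 := by rw [hxx, hyy, one_mul]
    · intro e
      apply hyx
      have := eq_inv_of_mul_eq_one_right e
      rw [this, hxi]
    · intro e
      apply hyax
      rw [hcax, ← e, ← mul_assoc, hxx, one_mul]
  have h5 := five_le I (Set.toFinite _) hxI haxI ⟨hy, hyy, hy1, hya⟩ hayI hxyI
    (fun e => ha1 (by
      have : x * 1 = a * x := by rw [mul_one]; exact e
      rw [hcax] at this
      exact (mul_left_cancel this).symm))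
    (fun e => hyx e.symm)
    (fun e => hyax (by
      rw [e, ← mul_assoc, haa, one_mul]))
    (fun e => hy1 (by
      have : x * 1 = x * y := by rw [mul_one]; exact e
      exact (mul_left_cancel this).symm))
    (fun e => hyax e.symm)
    (fun e => hyx (mul_left_cancel e).symm)
    (fun e => hya (by
      rw [hcax] at e
      exact (mul_left_cancel e).symm))
    (fun e => ha1 (by
      have : 1 * y = a * y := by rw [one_mul]; exact e
      exact (mul_right_cancel this).symm))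
    (fun e => hx1 (by
      have : 1 * y = x * y := by rw [one_mul]; exact e
      exact (mul_right_cancel this).symm))
    (fun e => hxa (mul_right_cancel e).symm)
  omega

/-- Two noncommuting involutions of the subgroup have square product the central involution. -/
theorem TD.sq_eq (ht : TD c a T) {x y : Γ} (hx : x ∈ T) (hy : y ∈ T) (hxx : x * x = 1) (hyy : y * y = 1)
    (hn : ¬ Commute x y) : (x * y) * (x * y) = a := by
  rcases ht.sqT _ (T.mul_mem hx hy) with e | e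
  · exfalso
    apply hn
    have hxi : x⁻¹ = x := inv_eq_of_mul_eq_one_left hxx
    have hyi : y⁻¹ = y := inv_eq_of_mul_eq_one_left hyy
    have h2 : (x * y)⁻¹ = x * y := inv_eq_of_mul_eq_one_left e
    rw [mul_inv_rev, hxi, hyi] at h2
    exact h2.symm
  · exact e

/-- Only the base point is fixed by the whole subgroup. -/
theorem DD.fix_eq (h : DD c) (ht : TD c a T) (haa : a * a = 1) (ha1 : a ≠ 1) {u : Γ} (huu : u * u = 1)
    (hu1 : u ≠ 1) (hfix : ∀ s ∈ T, Commute s u) : u = a := by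
  have hua : Commute u a := (hfix a ht.aT).symm
  have huT := h.mem_T ht haa huu hua
  by_contra hne
  obtain ⟨y, hy, -, -, -, hn⟩ := ht.noncomm haa ha1 huT huu hu1 hne
  exact hn (hfix y hy).symm

/-- The order of the centralizer of an involution. -/
theorem DD.card_cent (h : DD c) {a : Γ} (haa : a * a = 1) (ha1 : a ≠ 1) :
    Nat.card (Subgroup.centralizer ({a} : Set Γ)) = 24 := by
  haveI : Fact (Nat.Prime 3) := ⟨by norm_num⟩
  obtain ⟨T, ht⟩ := h.ex a haa ha1
  have hcz : Nat.card (Subgroup.zpowers c) = 3 := by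
    rw [Nat.card_zpowers, orderOf_eq_prime h.c3 h.c1]
  let f : T × Subgroup.zpowers c → Subgroup.centralizer ({a} : Set Γ) := fun p =>
    ⟨p.1.1 * p.2.1, by
      rw [Subgroup.mem_centralizer_singleton_iff]
      obtain ⟨k, hk⟩ := Subgroup.mem_zpowers_iff.1 p.2.2
      have h1 : Commute p.2.1 a := by
        rw [← hk]
        exact ((h.cc a).zpow_right k).symm
      exact (ht.cT p.1.1 p.1.2).mul_left h1⟩
  have hbij : Function.Bijective f := by
    constructor
    · rintro ⟨⟨x, hx⟩, ⟨y, hy⟩⟩ ⟨⟨x', hx'⟩, ⟨y', hy'⟩⟩ e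
      have e1 : x * y = x' * y' := congrArg Subtype.val e
      have hg : x'⁻¹ * x = y' * y⁻¹ := by
        calc x'⁻¹ * x = x'⁻¹ * (x * y) * y⁻¹ := by group
          _ = x'⁻¹ * (x' * y') * y⁻¹ := by rw [e1]
          _ = y' * y⁻¹ := by group
      have h8 : (x'⁻¹ * x) ^ 8 = 1 := ht.pow8 (T.mul_mem (T.inv_mem hx') hx)
      have h3 : (x'⁻¹ * x) ^ 3 = 1 := by
        rw [hg]
        have hm : y' * y⁻¹ ∈ Subgroup.zpowers c := Subgroup.mul_mem _ hy' (Subgroup.inv_mem _ hy)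
        obtain ⟨k, hk⟩ := Subgroup.mem_zpowers_iff.1 hm
        rw [← hk, ← zpow_natCast, ← zpow_mul, mul_comm, zpow_mul, zpow_natCast, h.c3, one_zpow]
      have h1 : x'⁻¹ * x = 1 := by
        have := pow_gcd_eq_one.2 ⟨h8, h3⟩
        have e0 : Nat.gcd 8 3 = 1 := by norm_num
        rwa [e0, pow_one] at this
      have e2 : x = x' := by
        have := inv_mul_eq_one.1 h1
        exact this.symm
      subst e2
      have e3 : y = y' := mul_left_cancel e1
      subst e3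
      rfl
    · rintro ⟨g, hg⟩
      obtain ⟨x, hx, k, e⟩ := ht.cover g (Subgroup.mem_centralizer_singleton_iff.1 hg)
      refine ⟨(⟨x, hx⟩, ⟨c ^ k, Subgroup.npow_mem_zpowers c k⟩), ?_⟩
      apply Subtype.ext
      exact e.symm
  rw [← Nat.card_congr (Equiv.ofBijective f hbij), Nat.card_prod, ht.card8, hcz]

/-- The involutions form one class. -/
theorem DD.single (h : DD c) {a b : Γ} (haa : a * a = 1) (ha1 : a ≠ 1) (hbb : b * b = 1) (hb1 : b ≠ 1) :
    IsConj b a := by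
  haveI : Fact (Nat.Prime 2) := ⟨Nat.prime_two⟩
  obtain ⟨T, ht⟩ := h.ex a haa ha1
  have hp : IsPGroup 2 T := IsPGroup.of_card (n := 3) (by rw [ht.card8]; norm_num)
  have hclass : ∀ u : Γ, u * u = 1 → u ≠ 1 → Nat.card {y | IsConj u y} * 24 = Nat.card Γ := by
    intro u huu hu1
    have := orbit_card (⊤ : Subgroup Γ) u {y | IsConj u y} (fun g _ => isConj_iff.2 ⟨g, rfl⟩)
      (fun y hy => by
        obtain ⟨g, hg⟩ := isConj_iff.1 hy
        exact ⟨g, Subgroup.mem_top g, hg⟩)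
    rw [top_inf_eq, h.card_cent huu hu1, Subgroup.card_top] at this
    exact this
  have hsc : ∀ u : Γ, ∀ v ∈ {y | IsConj u y}, ∀ g : Γ, g * v * g⁻¹ ∈ {y | IsConj u y} := by
    intro u v hv g
    exact IsConj.trans hv (isConj_iff.2 ⟨g, rfl⟩)
  have hinvc : ∀ u v : Γ, u * u = 1 → u ≠ 1 → IsConj u v → v * v = 1 ∧ v ≠ 1 := by
    intro u v huu hu1 huv
    obtain ⟨g, rfl⟩ := isConj_iff.1 huv
    exact inv_conj u ⟨huu, hu1⟩ g
  have hodd : ¬ 2 ∣ Nat.card {y | IsConj a y} := by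
    intro hd
    obtain ⟨b', hb', hne, hfix⟩ := second_fixed {y | IsConj a y} (hsc a) 2 T hp hd (a := a) (IsConj.refl a)
      (fun s hs => ht.cT s hs)
    have := hinvc a b' haa ha1 hb'
    exact hne (h.fix_eq ht haa ha1 this.1 this.2 hfix)
  have hodd2 : ¬ 2 ∣ Nat.card {y | IsConj b y} := by
    have e1 := hclass a haa ha1
    have e2 := hclass b hbb hb1
    have : Nat.card {y | IsConj b y} = Nat.card {y | IsConj a y} := by omega
    rwa [this]
  obtain ⟨y, hy, hfix⟩ := fixed_point_of_pgroup {y | IsConj b y} (hsc b) 2 T hp hodd2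
  have := hinvc b y hbb hb1 hy
  have e := h.fix_eq ht haa ha1 this.1 this.2 hfix
  rw [e] at hy
  exact hy

/-- The order of the group. -/
theorem DD.card_eq (h : DD c) {a : Γ} (haa : a * a = 1) (ha1 : a ≠ 1) :
    Nat.card Γ = 24 * Nat.card (Inv Γ) := by
  have := orbit_card (⊤ : Subgroup Γ) a (Inv Γ) (fun g _ => inv_conj a ⟨haa, ha1⟩ g)
      (fun y hy => by
        obtain ⟨g, hg⟩ := isConj_iff.1 (h.single hy.1 hy.2 haa ha1)
        exact ⟨g, Subgroup.mem_top g, hg⟩)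
  rw [top_inf_eq, h.card_cent haa ha1, Subgroup.card_top] at this
  rw [← this, mul_comm]

/-- The number of involutions commuting with an involution. -/
theorem DD.fix5 (h : DD c) {s : Γ} (hss : s * s = 1) (hs1 : s ≠ 1) :
    Nat.card {u : Inv Γ // s * u.1 * s⁻¹ = u.1} = 5 := by
  obtain ⟨T, ht⟩ := h.ex s hss hs1
  have e1 : Nat.card {u : Inv Γ // s * u.1 * s⁻¹ = u.1} = Nat.card {u : Γ | u ∈ Inv Γ ∧ Commute u s} := by
    apply Nat.card_congr
    exact ⟨fun u => ⟨u.1.1, u.1.2, (comm_of_conj_eq u.2).symm⟩,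
      fun u => ⟨⟨u.1, u.2.1⟩, conj_eq_of_comm u.2.2.symm⟩, fun u => rfl, fun u => rfl⟩
  rw [e1, Nat.card_coe_set_eq]
  have e2 : {u : Γ | u ∈ Inv Γ ∧ Commute u s} = insert s {x : Γ | x ∈ T ∧ x * x = 1 ∧ x ≠ 1 ∧ x ≠ s} := by
    ext u
    simp only [Set.mem_setOf_eq, Set.mem_insert_iff]
    constructor
    · rintro ⟨⟨h1, h2⟩, h3⟩
      by_cases hus : u = s
      · exact Or.inl hus
      · exact Or.inr ⟨h.mem_T ht hss h1 h3, h1, h2, hus⟩
    · rintro (rfl | ⟨h1, h2, h3, -⟩)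
      · exact ⟨⟨hss, hs1⟩, Commute.refl u⟩
      · exact ⟨⟨h2, h3⟩, ht.cT u h1⟩
  rw [e2, Set.ncard_insert_of_notMem (by simp) (Set.toFinite _), ← Nat.card_coe_set_eq]
  have := ht.inv4
  show Nat.card {x : Γ // x ∈ T ∧ x * x = 1 ∧ x ≠ 1 ∧ x ≠ s} + 1 = 5
  rw [this]

/-- Elements whose square is not trivial fix only the base point. -/
theorem DD.fix1 (h : DD c) (ht : TD c a T) (haa : a * a = 1) (ha1 : a ≠ 1) {s : Γ} (hs : s ∈ T)
    (hss : s * s ≠ 1) : Nat.card {u : Inv Γ // s * u.1 * s⁻¹ = u.1} = 1 := by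
  have hsa : s * s = a := by
    rcases ht.sqT s hs with e | e
    · exact absurd e hss
    · exact e
  have haI : a ∈ Inv Γ := ⟨haa, ha1⟩
  rw [Nat.card_eq_one_iff_unique]
  have hkey : ∀ u : Inv Γ, s * u.1 * s⁻¹ = u.1 → u.1 = a := by
    rintro ⟨u, huu, hu1⟩ hfix
    by_contra hne
    have hne' : u ≠ a := hne
    have hfix' : s * u * s⁻¹ = u := hfix
    have hcs : Commute s u := comm_of_conj_eq hfix'
    have hca : Commute a u := by
      rw [← hsa]
      exact hcs.mul_left hcs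
    have huT : u ∈ T := h.mem_T ht haa huu hca.symm
    -- the centralizer in the subgroup contains five elements
    have hle : T ⊓ Subgroup.centralizer ({u} : Set Γ) ≤ T := inf_le_left
    have hd := Subgroup.card_dvd_of_le hle
    rw [ht.card8] at hd
    have hmem : ∀ g ∈ T, Commute g u → g ∈ ((T ⊓ Subgroup.centralizer ({u} : Set Γ) : Subgroup Γ) : Set Γ) :=
      fun g hg hc => ⟨hg, Subgroup.mem_centralizer_singleton_iff.2 hc⟩
    have hcau : Commute (a * u) u := hca.mul_left (Commute.refl u)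
    have hauu : a * u ≠ 1 := by
      intro e
      apply hne'
      have := eq_inv_of_mul_eq_one_right e
      rw [this]
      exact inv_eq_of_mul_eq_one_left haa
    have hau2 : a * u ≠ a := fun e => hu1 (mul_eq_left.1 e)
    have hau3 : a * u ≠ u := fun e => ha1 (mul_eq_right.1 e)
    have hsq : (a * u) * (a * u) = 1 := by
      have e := (ht.cT u huT).eq
      calc (a * u) * (a * u) = a * (u * a) * u := by group
        _ = a * (a * u) * u := by rw [e]
        _ = (a * a) * (u * u) := by group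
        _ = 1 := by rw [haa, huu, one_mul]
    have h5 := five_le _ (Set.toFinite _) (hmem 1 T.one_mem (Commute.one_left u)) (hmem a ht.aT hca)
      (hmem u huT (Commute.refl u)) (hmem (a * u) (T.mul_mem ht.aT huT) hcau) (hmem s hs hcs)
      (Ne.symm ha1) (Ne.symm hu1) (Ne.symm hauu) (fun e => hss (by rw [← e]; simp))
      (Ne.symm hne') (Ne.symm hau2) (fun e => hss (by rw [← e]; exact haa))
      (Ne.symm hau3) (fun e => hss (by rw [← e]; exact huu)) (fun e => hss (by rw [← e]; exact hsq))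
    rw [← Nat.card_coe_set_eq] at h5
    have h5' : 5 ≤ Nat.card (T ⊓ Subgroup.centralizer ({u} : Set Γ) : Subgroup Γ) := h5
    have hc8 : Nat.card (T ⊓ Subgroup.centralizer ({u} : Set Γ) : Subgroup Γ) = 8 := by
      have hpos := Nat.le_of_dvd (by norm_num) hd
      obtain ⟨m, hm⟩ := hd
      have : m = 1 := by
        have hm' : Nat.card (T ⊓ Subgroup.centralizer ({u} : Set Γ) : Subgroup Γ) * m = 8 := hm.symm
        nlinarith [hm', h5', hpos]
      rw [this, mul_one] at hm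
      exact hm.symm
    have heq := Subgroup.eq_of_le_of_card_ge hle (by rw [hc8, ht.card8])
    apply hne'
    apply h.fix_eq ht haa ha1 huu hu1
    intro t ht'
    rw [← heq] at ht'
    exact Subgroup.mem_centralizer_singleton_iff.1 ht'.2
  refine ⟨⟨?_⟩, ⟨⟨⟨a, haI⟩, ?_⟩⟩⟩
  · rintro ⟨u, hu⟩ ⟨v, hv⟩
    apply Subtype.ext
    apply Subtype.ext
    rw [hkey u hu, hkey v hv]
  · show s * a * s⁻¹ = a
    exact conj_eq_of_comm (ht.cT s hs)

/-- The congruence for the number of involutions. -/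
theorem DD.mod8 (h : DD c) {a : Γ} (haa : a * a = 1) (ha1 : a ≠ 1) : Nat.card (Inv Γ) % 8 = 5 := by
  classical
  haveI := Fintype.ofFinite Γ
  obtain ⟨T, ht⟩ := h.ex a haa ha1
  haveI hTf : Fintype T := Fintype.ofFinite _
  have hb := Cfsg.Agent.Lib.HJFiveB.burnside_dvd T (Inv Γ) inv_conj
  set N := Nat.card (Inv Γ) with hN
  have hN1 : 1 ≤ N := by
    haveI : Nonempty (Inv Γ) := ⟨⟨a, haa, ha1⟩⟩
    exact Nat.card_pos
  have e : ∀ s : T, Nat.card {u : Inv Γ // s.1 * u.1 * s.1⁻¹ = u.1} =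
      1 + (if s ≠ 1 ∧ s * s = 1 then 4 else 0) + (if s = 1 then N - 1 else 0) := by
    intro s
    by_cases hs1 : s = 1
    · subst hs1
      rw [if_neg (fun hc => hc.1 rfl), if_pos rfl]
      have e1 : Nat.card {u : Inv Γ // ((1 : T) : Γ) * u.1 * ((1 : T) : Γ)⁻¹ = u.1} = N := by
        rw [hN]
        apply Nat.card_congr
        refine ⟨fun u => u.1, fun u => ⟨u, ?_⟩, fun u => rfl, fun u => rfl⟩
        simp
      rw [e1]
      omega
    · have hs1' : s.1 ≠ 1 := fun e => hs1 (Subtype.ext e)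
      by_cases hss : s * s = 1
      · have hss' : s.1 * s.1 = 1 := congrArg Subtype.val hss
        rw [if_pos ⟨hs1, hss⟩, if_neg hs1, h.fix5 hss' hs1']
      · have hss' : s.1 * s.1 ≠ 1 := fun e => hss (Subtype.ext e)
        rw [if_neg (fun hc => hss hc.2), if_neg hs1, h.fix1 ht haa ha1 s.2 hss']
  simp_rw [e] at hb
  rw [Finset.sum_add_distrib, Finset.sum_add_distrib, Finset.sum_ite_eq' Finset.univ (1 : T)] at hb
  simp only [Finset.mem_univ, if_true] at hb
  rw [Finset.sum_ite, Finset.sum_const_zero, add_zero, Finset.sum_const, Finset.sum_const, smul_eq_mul,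
    smul_eq_mul, Finset.card_univ, ← Nat.card_eq_fintype_card, ht.card8] at hb
  have hcount : (Finset.univ.filter (fun s : T => s ≠ 1 ∧ s * s = 1)).card = 5 := by
    rw [← Fintype.card_subtype, ← Nat.card_eq_fintype_card]
    have e1 : Nat.card {s : T // s ≠ 1 ∧ s * s = 1} = Nat.card {x : Γ | x ∈ T ∧ x * x = 1 ∧ x ≠ 1} := by
      apply Nat.card_congr
      refine ⟨fun s => ⟨s.1.1, s.1.2, congrArg Subtype.val s.2.2, fun e => s.2.1 (Subtype.ext e)⟩,
        fun x => ⟨⟨x.1, x.2.1⟩, fun e => x.2.2.2 (congrArg Subtype.val e), Subtype.ext x.2.2.1⟩,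
        fun s => rfl, fun x => rfl⟩
    rw [e1, Nat.card_coe_set_eq]
    have e2 : {x : Γ | x ∈ T ∧ x * x = 1 ∧ x ≠ 1} = insert a {x : Γ | x ∈ T ∧ x * x = 1 ∧ x ≠ 1 ∧ x ≠ a} := by
      ext u
      simp only [Set.mem_setOf_eq, Set.mem_insert_iff]
      constructor
      · rintro ⟨h1, h2, h3⟩
        by_cases hua : u = a
        · exact Or.inl hua
        · exact Or.inr ⟨h1, h2, h3, hua⟩
      · rintro (rfl | ⟨h1, h2, h3, -⟩)
        · exact ⟨ht.aT, haa, ha1⟩
        · exact ⟨h1, h2, h3⟩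
    rw [e2, Set.ncard_insert_of_notMem (by simp) (Set.toFinite _), ← Nat.card_coe_set_eq]
    have := ht.inv4
    show Nat.card {x : Γ // x ∈ T ∧ x * x = 1 ∧ x ≠ 1 ∧ x ≠ a} + 1 = 5
    rw [this]
  rw [hcount] at hb
  omega

theorem TD.exists_inv (ht : TD c a T) : ∃ x, x ∈ T ∧ x * x = 1 ∧ x ≠ 1 ∧ x ≠ a := by
  have : 0 < Nat.card {x : Γ // x ∈ T ∧ x * x = 1 ∧ x ≠ 1 ∧ x ≠ a} := by
    rw [ht.inv4]
    norm_num
  obtain ⟨⟨x, hx⟩⟩ := (Nat.card_pos_iff.1 this).1
  exact ⟨x, hx⟩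

/-- Two involutions with product squaring to the given involution. -/
theorem DD.exists_pair (h : DD c) {a : Γ} (haa : a * a = 1) (ha1 : a ≠ 1) :
    ∃ e₁ e₂ : Γ, e₁ * e₁ = 1 ∧ e₂ * e₂ = 1 ∧ (e₁ * e₂) * (e₁ * e₂) = a := by
  obtain ⟨T, ht⟩ := h.ex a haa ha1
  obtain ⟨x, hx, hxx, hx1, hxa⟩ := ht.exists_inv
  obtain ⟨y, hy, hyy, hy1, hya, hn⟩ := ht.noncomm haa ha1 hx hxx hx1 hxa
  exact ⟨x, y, hxx, hyy, ht.sq_eq hx hy hxx hyy hn⟩

/-- The number of involutions is at least thirteen. -/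
theorem DD.ge13 (h : DD c) {a : Γ} (haa : a * a = 1) (ha1 : a ≠ 1) : 13 ≤ Nat.card (Inv Γ) := by
  obtain ⟨T, ht⟩ := h.ex a haa ha1
  obtain ⟨x, hx, hxx, hx1, hxa⟩ := ht.exists_inv
  obtain ⟨T', ht'⟩ := h.ex x hxx hx1
  have hax : Commute a x := (ht.cT x hx).symm
  have haT' := h.mem_T ht' hxx haa hax
  obtain ⟨y, hy, hyy, hy1, hyx, hn⟩ := ht'.noncomm hxx hx1 haT' haa ha1 (Ne.symm hxa)
  have hm := h.mod8 haa ha1
  rw [Nat.card_coe_set_eq] at hm ⊢
  have hsub : insert y (insert a {x : Γ | x ∈ T ∧ x * x = 1 ∧ x ≠ 1 ∧ x ≠ a}) ⊆ Inv Γ := by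
    rintro u (rfl | rfl | ⟨-, h2, h3, -⟩)
    · exact ⟨hyy, hy1⟩
    · exact ⟨haa, ha1⟩
    · exact ⟨h2, h3⟩
  have hle := Set.ncard_le_ncard hsub (Set.toFinite _)
  rw [Set.ncard_insert_of_notMem (by
      intro hmem
      rcases hmem with e | ⟨h1, -⟩
      · rw [e] at hn
        exact hn (Commute.refl a)
      · exact hn (ht.cT y h1).symm) (Set.toFinite _),
    Set.ncard_insert_of_notMem (by simp) (Set.toFinite _), ← Nat.card_coe_set_eq] at hle
  have hc4 : Nat.card {x : Γ | x ∈ T ∧ x * x = 1 ∧ x ≠ 1 ∧ x ≠ a} = 4 := ht.inv4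
  rw [hc4] at hle
  omega

/-- Any subgroup containing the central element and all elements of period eight is everything. -/
theorem DD.no_proper (h : DD c) {a : Γ} (haa : a * a = 1) (ha1 : a ≠ 1) (K : Subgroup Γ) (hcK : c ∈ K)
    (hK : ∀ g, g ^ 8 = 1 → g ∈ K) : Nat.card K = Nat.card Γ := by
  have hD : DD (⟨c, hcK⟩ : K) := by
    refine ⟨Subtype.ext h.c3, fun e => h.c1 (congrArg Subtype.val e), fun g => Subtype.ext (h.cc g.1), ?_⟩
    rintro ⟨b, hb⟩ hbb hb1
    have hbb' : b * b = 1 := congrArg Subtype.val hbb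
    have hb1' : b ≠ 1 := fun e => hb1 (Subtype.ext e)
    obtain ⟨T, ht⟩ := h.ex b hbb' hb1'
    have hle : T ≤ K := fun x hx => hK x (ht.pow8 hx)
    refine ⟨T.subgroupOf K, ?_, ?_, ?_, ?_, ?_, ?_⟩
    · rw [← ht.card8]
      exact Nat.card_congr (Subgroup.subgroupOfEquivOfLe hle).toEquiv
    · exact Subgroup.mem_subgroupOf.2 ht.aT
    · intro x hx
      exact Subtype.ext (ht.cT x.1 (Subgroup.mem_subgroupOf.1 hx))
    · intro x hx
      exact (ht.sqT x.1 (Subgroup.mem_subgroupOf.1 hx)).imp Subtype.ext Subtype.ext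
    · intro g hg
      obtain ⟨x, hx, k, e⟩ := ht.cover g.1 (congrArg Subtype.val hg)
      exact ⟨⟨x, hle hx⟩, Subgroup.mem_subgroupOf.2 hx, k, Subtype.ext e⟩
    · rw [← ht.inv4]
      apply Nat.card_congr
      refine ⟨fun x => ⟨x.1.1, Subgroup.mem_subgroupOf.1 x.2.1, congrArg Subtype.val x.2.2.1,
          fun e => x.2.2.2.1 (Subtype.ext e), fun e => x.2.2.2.2 (Subtype.ext e)⟩,
        fun x => ⟨⟨x.1, hle x.2.1⟩, Subgroup.mem_subgroupOf.2 x.2.1, Subtype.ext x.2.2.1,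
          fun e => x.2.2.2.1 (congrArg Subtype.val e), fun e => x.2.2.2.2 (congrArg Subtype.val e)⟩,
        fun x => rfl, fun x => rfl⟩
  have h8 : ∀ v : Γ, v * v = 1 → v ^ 8 = 1 := by
    intro v hv
    have : v ^ 8 = (v * v) ^ 4 := by rw [← pow_two, ← pow_mul]
    rw [this, hv, one_pow]
  have haK : a ∈ K := hK a (h8 a haa)
  have e1 := hD.card_eq (a := ⟨a, haK⟩) (Subtype.ext haa) (fun e => ha1 (congrArg Subtype.val e))
  have e2 := h.card_eq haa ha1
  have e3 : Nat.card (Inv K) = Nat.card (Inv Γ) := by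
    apply Nat.card_congr
    refine ⟨fun v => ⟨v.1.1, congrArg Subtype.val v.2.1, fun e => v.2.2 (Subtype.ext e)⟩,
      fun v => ⟨⟨v.1, hK v.1 (h8 v.1 v.2.1)⟩, Subtype.ext v.2.1, fun e => v.2.2 (congrArg Subtype.val e)⟩,
      fun v => rfl, fun v => rfl⟩
  rw [e1, e2, e3]

end DDsec

/-- A group with a self-centralizing four-subgroup of exponent two of order larger than twelve has
order sixty. -/
theorem cit_big {Γ : Type*} [Group Γ] [Finite Γ] (Y : Subgroup Γ) (hY4 : Nat.card Y = 4)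
    (hY2 : ∀ y ∈ Y, y * y = 1) (hcent : ∀ y ∈ Y, y ≠ 1 → ∀ g, Commute g y → g ∈ Y)
    (hbig : 12 < Nat.card Γ) {y₀ : Γ} (hy₀ : y₀ ∈ Y) (hy₀1 : y₀ ≠ 1) :
    Nat.card Γ = 60 := by
  classical
  haveI := Fintype.ofFinite Γ
  have hYc : ∀ a ∈ Y, ∀ b ∈ Y, Commute a b := by
    intro a ha b hb
    have h1 := hY2 _ (Y.mul_mem ha hb)
    have hai : a⁻¹ = a := inv_eq_of_mul_eq_one_left (hY2 a ha)
    have hbi : b⁻¹ = b := inv_eq_of_mul_eq_one_left (hY2 b hb)
    have h2 : (a * b)⁻¹ = a * b := inv_eq_of_mul_eq_one_left h1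
    rw [mul_inv_rev, hai, hbi] at h2
    exact h2.symm
  have hYcard : (Y : Set Γ).ncard = 4 := by
    rw [← Nat.card_coe_set_eq]
    exact hY4
  -- a second element
  obtain ⟨y₁, hy₁, hy₁n⟩ : ∃ y₁ ∈ (Y : Set Γ), y₁ ∉ ({1, y₀} : Set Γ) := by
    apply Set.exists_mem_notMem_of_ncard_lt_ncard _ (Set.toFinite _)
    rw [hYcard]
    have := Set.ncard_insert_le (1 : Γ) ({y₀} : Set Γ)
    rw [Set.ncard_singleton] at this
    omega
  simp only [Set.mem_insert_iff, Set.mem_singleton_iff, not_or] at hy₁n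
  obtain ⟨hy₁1, hy₁0⟩ := hy₁n
  have hy₁' : y₁ ∈ Y := hy₁
  have hm : y₀ * y₁ ∈ Y := Y.mul_mem hy₀ hy₁'
  have hy₀y₀ := hY2 y₀ hy₀
  have hy₁y₁ := hY2 y₁ hy₁'
  have hm1 : y₀ * y₁ ≠ 1 := by
    intro e
    apply hy₁0
    have e2 : y₀ * y₁ = y₀ * y₀ := by rw [e, hy₀y₀]
    exact mul_left_cancel e2
  have hm0 : y₀ * y₁ ≠ y₀ := fun e => hy₁1 (mul_eq_left.1 e)
  have hm1' : y₀ * y₁ ≠ y₁ := fun e => hy₀1 (mul_eq_right.1 e)
  have hall : ∀ c ∈ Y, c = 1 ∨ c = y₀ ∨ c = y₁ ∨ c = y₀ * y₁ := by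
    intro c hc
    by_contra hne
    push Not at hne
    obtain ⟨h1, h2, h3, h4⟩ := hne
    have hs : ({c, 1, y₀, y₁, y₀ * y₁} : Finset Γ).card = 5 := by
      have a1 : y₁ ∉ ({y₀ * y₁} : Finset Γ) := by
        rw [Finset.mem_singleton]
        exact Ne.symm hm1'
      have a2 : y₀ ∉ ({y₁, y₀ * y₁} : Finset Γ) := by
        rw [Finset.mem_insert, Finset.mem_singleton, not_or]
        exact ⟨Ne.symm hy₁0, Ne.symm hm0⟩
      have a3 : (1 : Γ) ∉ ({y₀, y₁, y₀ * y₁} : Finset Γ) := by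
        rw [Finset.mem_insert, Finset.mem_insert, Finset.mem_singleton, not_or, not_or]
        exact ⟨Ne.symm hy₀1, Ne.symm hy₁1, Ne.symm hm1⟩
      have a4 : c ∉ ({1, y₀, y₁, y₀ * y₁} : Finset Γ) := by
        rw [Finset.mem_insert, Finset.mem_insert, Finset.mem_insert, Finset.mem_singleton, not_or, not_or, not_or]
        exact ⟨h1, h2, h3, h4⟩
      rw [Finset.card_insert_of_notMem a4, Finset.card_insert_of_notMem a3, Finset.card_insert_of_notMem a2,
        Finset.card_insert_of_notMem a1, Finset.card_singleton]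
    have hsub : (({c, 1, y₀, y₁, y₀ * y₁} : Finset Γ) : Set Γ) ⊆ (Y : Set Γ) := by
      intro w hw
      simp only [Finset.coe_insert, Finset.coe_singleton, Set.mem_insert_iff, Set.mem_singleton_iff] at hw
      rcases hw with rfl | rfl | rfl | rfl | rfl
      · exact hc
      · exact Y.one_mem
      · exact hy₀
      · exact hy₁'
      · exact hm
    have h6 := Set.ncard_le_ncard hsub (Set.toFinite _)
    rw [Set.ncard_coe_finset, hs, hYcard] at h6
    omega
  -- the conjugacy class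
  have hcy₀ : ∀ g : Γ, g ∈ Subgroup.centralizer ({y₀} : Set Γ) ↔ g ∈ Y := by
    intro g
    rw [Subgroup.mem_centralizer_singleton_iff]
    exact ⟨fun e => hcent y₀ hy₀ hy₀1 g e, fun hg => hYc g hg y₀ hy₀⟩
  have hcardC : Nat.card (Subgroup.centralizer ({y₀} : Set Γ)) = 4 := by
    rw [← hY4]
    exact Nat.card_congr (Equiv.subtypeEquivRight hcy₀)
  let T : Set Γ := {u | IsConj y₀ u}
  have horb := orbit_card (⊤ : Subgroup Γ) y₀ T (fun g _ => isConj_iff.2 ⟨g, rfl⟩)
    (fun y hy => by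
      obtain ⟨g, hg⟩ := isConj_iff.1 hy
      exact ⟨g, Subgroup.mem_top g, hg⟩)
  rw [top_inf_eq, hcardC, Subgroup.card_top] at horb
  have hT5 : 3 < Nat.card T := by omega
  -- a conjugate not commuting with the base
  obtain ⟨u₁, hu₁T, hu₁n⟩ : ∃ u₁ ∈ T, ¬ Commute u₁ y₀ := by
    by_contra hno
    push Not at hno
    have hsub : T ⊆ (Y : Set Γ) \ {1} := by
      intro u hu
      have hu1 : u ≠ 1 := by
        rintro rfl
        have hu' : IsConj y₀ 1 := hu
        exact hy₀1 (isConj_one_right.1 hu'.symm)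
      exact ⟨hcent y₀ hy₀ hy₀1 u (hno u hu), hu1⟩
    have h1 := Set.ncard_le_ncard hsub (Set.toFinite _)
    rw [Set.ncard_diff_singleton_of_mem Y.one_mem, hYcard, ← Nat.card_coe_set_eq] at h1
    omega
  have hu₁u₁ : u₁ * u₁ = 1 := by
    obtain ⟨c, rfl⟩ := isConj_iff.1 hu₁T
    calc c * y₀ * c⁻¹ * (c * y₀ * c⁻¹) = c * (y₀ * y₀) * c⁻¹ := by group
      _ = 1 := by rw [hy₀y₀]; group
  -- conjugacy of involutions in the subgroup with non-commuting ones
  have hanti : ∀ a ∈ Y, a ≠ 1 → ∀ b : Γ, b * b = 1 → ¬ Commute b a → IsConj a b := by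
    intro a ha ha1 b hbb hn
    apply conj_of_inv (hY2 a ha) hbb
    intro c hcc hc1 h1 h2
    have hcY : c ∈ Y := hcent a ha ha1 c h1
    have hbY : b ∈ Y := hcent c hcY hc1 b h2.symm
    exact hn (hYc b hbY a ha)
  have htrans : ∀ v : Γ, v * v = 1 → v ≠ 1 → IsConj y₀ v := by
    intro v hvv hv1
    by_cases hc : Commute v y₀
    · have hvY : v ∈ Y := hcent y₀ hy₀ hy₀1 v hc
      have hn : ¬ Commute u₁ v := by
        intro e
        have : u₁ ∈ Y := hcent v hvY hv1 u₁ e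
        exact hu₁n (hYc u₁ this y₀ hy₀)
      exact (isConj_iff.2 (isConj_iff.1 hu₁T)).trans (hanti v hvY hv1 u₁ hu₁u₁ hn).symm
    · exact hanti y₀ hy₀ hy₀1 v hvv hc
  -- the product group
  let y₀' : Y := ⟨y₀, hy₀⟩
  let A : Set (Γ × Y) := {p | p.2 = 1 ∧ p.1 * p.1 = 1 ∧ p.1 ≠ 1}
  let b : Γ × Y := (y₀, 1)
  let t : Γ × Y := (1, y₀')
  have hE : ∀ e e' : Y, e * e' = e' * e := fun e e' => Subtype.ext (hYc e.1 e.2 e'.1 e'.2)
  have hb : b ∈ A := ⟨rfl, hy₀y₀, hy₀1⟩
  have hCT : CT A t := by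
    apply of_base (b := b)
    · apply Prod.ext
      · show (1 : Γ) * 1 = 1
        simp
      · exact Subtype.ext hy₀y₀
    · intro e
      apply hy₀1
      have := congrArg (fun q : Γ × Y => (q.2 : Γ)) e
      exact this
    · intro g
      apply Prod.ext
      · show g.1 * 1 = 1 * g.1
        simp
      · exact hE _ _
    · intro hA
      apply hy₀1
      exact congrArg (fun q : Y => (q : Γ)) hA.1
    · rintro u ⟨h1, h2, h3⟩
      apply Prod.ext
      · exact h2
      · show u.2 * u.2 = 1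
        rw [h1, one_mul]
    · rintro u ⟨h1, h2, h3⟩ g
      refine ⟨?_, ?_, ?_⟩
      · show g.2 * u.2 * g.2⁻¹ = 1
        rw [h1]
        simp
      · show g.1 * u.1 * g.1⁻¹ * (g.1 * u.1 * g.1⁻¹) = 1
        calc g.1 * u.1 * g.1⁻¹ * (g.1 * u.1 * g.1⁻¹) = g.1 * (u.1 * u.1) * g.1⁻¹ := by group
          _ = 1 := by rw [h2]; group
      · show g.1 * u.1 * g.1⁻¹ ≠ 1
        intro e
        apply h3
        have e2 : u.1 = g.1⁻¹ * (g.1 * u.1 * g.1⁻¹) * g.1 := by group
        rw [e2, e]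
        group
    · exact hb
    · rintro u ⟨h1, h2, h3⟩
      obtain ⟨c, hc⟩ := isConj_iff.1 (htrans u.1 h2 h3)
      refine ⟨(c, 1), ?_⟩
      apply Prod.ext
      · exact hc
      · show (1 : Y) * 1 * 1⁻¹ = u.2
        rw [h1]
        simp
    · rw [← show Nat.card (Y × Y) = 16 by rw [Nat.card_prod, hY4]]
      apply Nat.card_congr
      refine ⟨fun p => (⟨p.1.1, ?_⟩, p.1.2), fun q => ⟨(q.1.1, q.2), ?_⟩, fun p => rfl, fun q => rfl⟩
      · have h1 := Subgroup.mem_centralizer_singleton_iff.1 p.2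
        have h2 : p.1.1 * y₀ = y₀ * p.1.1 := congrArg Prod.fst h1
        exact hcent y₀ hy₀ hy₀1 _ h2
      · rw [Subgroup.mem_centralizer_singleton_iff]
        apply Prod.ext
        · exact hYc _ q.1.2 _ hy₀
        · show q.2 * 1 = 1 * q.2
          simp
    · refine ⟨(y₁, 1), ⟨rfl, hy₁y₁, hy₁1⟩, ?_, ?_, ?_, ?_⟩
      · intro e
        exact hy₁0 (congrArg Prod.fst e)
      · apply Prod.ext
        · exact hYc _ hy₁' _ hy₀
        · rfl
      · refine ⟨?_, hY2 _ hm, hm1⟩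
        show (1 : Y) * 1 = 1
        simp
      · rintro ⟨c, c'⟩ ⟨h1, h2, h3⟩ hcb
        simp only at h1 h2 h3
        subst h1
        have h4 : c * y₀ = y₀ * c := congrArg Prod.fst hcb
        have hcY := hcent y₀ hy₀ hy₀1 c h4
        rcases hall c hcY with e | e | e | e
        · exact absurd e h3
        · left; rw [e]
        · right; left; rw [e]
        · right; right
          rw [e]
          apply Prod.ext
          · rfl
          · show (1 : Y) = 1 * 1
            simp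
    · rintro g hg ⟨v, v'⟩ ⟨h1, h2, h3⟩ hvb
      simp only at h1 h2 h3
      subst h1
      have h4 : g.1 * y₀ = y₀ * g.1 := congrArg Prod.fst hg
      have h5 : v * y₀ = y₀ * v := congrArg Prod.fst hvb
      apply Prod.ext
      · exact hYc _ (hcent y₀ hy₀ hy₀1 _ h4) _ (hcent y₀ hy₀ hy₀1 _ h5)
      · show g.2 * 1 = 1 * g.2
        simp
  -- the number of points
  have hA3 := card_A hCT hb
  have horb2 := orbit_card (⊤ : Subgroup (Γ × Y)) b A (fun g _ => hCT.conj b hb g) (fun y hy => by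
    obtain ⟨g, hg⟩ := hCT.trans b hb y hy
    exact ⟨g, Subgroup.mem_top g, hg⟩)
  rw [top_inf_eq, hCT.card16 b hb, Subgroup.card_top, Nat.card_prod, hY4] at horb2
  rcases hA3 with e | e
  · exfalso
    rw [e] at horb2
    omega
  · rw [e] at horb2
    omega

section central3

variable {Γ₀ : Type*} [Group Γ₀] [Finite Γ₀]

theorem cent_mem3 {c : Γ₀} (hc5 : c ^ 3 = 1) (hcc : ∀ g, Commute g c) {w : Γ₀}
    (hw : w ∈ Subgroup.zpowers c) : w ^ 3 = 1 ∧ ∀ g, Commute g w := by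
  obtain ⟨k, rfl⟩ := Subgroup.mem_zpowers_iff.1 hw
  refine ⟨?_, fun g => (hcc g).zpow_right k⟩
  rw [← zpow_natCast, ← zpow_mul, mul_comm, zpow_mul, zpow_natCast, hc5, one_zpow]

theorem cent_sq3 {w : Γ₀} (h5 : w ^ 3 = 1) (h2 : w * w = 1) : w = 1 := by
  rw [pow_three_eq, h2, mul_one] at h5
  exact h5

/-- If the product with a central element of period three is still an involution the element is trivial. -/
theorem cent_inv3 {a w : Γ₀} (h5 : w ^ 3 = 1) (hw : ∀ g, Commute g w) (ha : a * a = 1)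
    (h : (a * w) * (a * w) = 1) : w = 1 := by
  apply cent_sq3 h5
  have e : (a * w) * (a * w) = (a * a) * (w * w) := by
    calc (a * w) * (a * w) = a * (w * a) * w := by group
      _ = a * (a * w) * w := by rw [(hw a).eq.symm]
      _ = (a * a) * (w * w) := by group
  rw [e, ha, one_mul] at h
  exact h

/-- A central extension by a group of order three of a group with a self-centralizing four-subgroup. -/
theorem central_gen3 (c : Γ₀) (hc5 : c ^ 3 = 1) (hc1 : c ≠ 1) (hcc : ∀ g, Commute g c)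
    (Y₀ : Subgroup Γ₀) (hY4 : Nat.card Y₀ = 4) (hY2 : ∀ y ∈ Y₀, y * y = 1)
    (hY : ∀ y ∈ Y₀, y ≠ 1 → ∀ g, Commute g y → ∃ y' ∈ Y₀, ∃ w ∈ Subgroup.zpowers c, g = y' * w)
    {y₀ : Γ₀} (hy₀ : y₀ ∈ Y₀) (hy₀1 : y₀ ≠ 1) :
    Nat.card Γ₀ ≤ 36 ∨ Nat.card Γ₀ = 180 := by
  classical
  haveI : Fact (Nat.Prime 3) := ⟨by norm_num⟩
  set W := Subgroup.zpowers c with hW
  have hWm : ∀ w ∈ W, w ^ 3 = 1 ∧ ∀ g, Commute g w := fun w hw => cent_mem3 hc5 hcc hw
  have hW2 : ∀ w ∈ W, w * w = 1 → w = 1 := fun w hw h2 => cent_sq3 (hWm w hw).1 h2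
  haveI hN : W.Normal := ⟨fun n hn g => by
    rw [conj_eq_of_comm ((hWm n hn).2 g)]
    exact hn⟩
  let mk : Γ₀ →* Γ₀ ⧸ W := QuotientGroup.mk' W
  have hsurj : Function.Surjective mk := QuotientGroup.mk'_surjective W
  have hmk : ∀ x y : Γ₀, mk x = mk y ↔ x⁻¹ * y ∈ W := fun x y => QuotientGroup.eq
  have hmk1 : ∀ x : Γ₀, mk x = 1 ↔ x ∈ W := fun x => QuotientGroup.eq_one_iff x
  have hcardW : Nat.card W = 3 := by
    rw [hW, Nat.card_zpowers, orderOf_eq_prime hc5 hc1]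
  have hcardq : Nat.card Γ₀ = Nat.card (Γ₀ ⧸ W) * 3 := by
    rw [Subgroup.card_eq_card_quotient_mul_card_subgroup W, hcardW]
  have hinjY : ∀ y ∈ Y₀, mk y = 1 → y = 1 := fun y hy e => hW2 y ((hmk1 y).1 e) (hY2 y hy)
  have hcardY : Nat.card (Y₀.map mk) = 4 := by
    rw [← hY4]
    symm
    apply Nat.card_eq_of_bijective (mk.subgroupMap Y₀)
    constructor
    · rw [injective_iff_map_eq_one]
      intro y hy
      apply Subtype.ext
      apply hinjY y.1 y.2
      exact congrArg Subtype.val hy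
    · exact mk.subgroupMap_surjective Y₀
  have hY2' : ∀ y ∈ Y₀.map mk, y * y = 1 := by
    rintro _ ⟨y, hy, rfl⟩
    rw [← map_mul, hY2 y hy, map_one]
  have hcomm : ∀ a g : Γ₀, a * a = 1 → Commute (mk g) (mk a) → Commute g a := by
    intro a g haa hc
    have h1 : mk (g * a * g⁻¹) = mk a := by
      rw [map_mul, map_mul, map_inv, hc.eq]
      group
    have hw : a⁻¹ * (g * a * g⁻¹) ∈ W := (hmk a _).1 h1.symm
    have hw1 : a⁻¹ * (g * a * g⁻¹) = 1 := by
      apply cent_inv3 (hWm _ hw).1 (hWm _ hw).2 haa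
      have e : a * (a⁻¹ * (g * a * g⁻¹)) = g * a * g⁻¹ := by group
      rw [e]
      calc g * a * g⁻¹ * (g * a * g⁻¹) = g * (a * a) * g⁻¹ := by group
        _ = 1 := by rw [haa]; group
    have e2 : g * a * g⁻¹ = a := by
      have := mul_eq_one_iff_eq_inv.1 hw1
      calc g * a * g⁻¹ = a * (a⁻¹ * (g * a * g⁻¹)) := by group
        _ = a := by rw [hw1, mul_one]
    exact comm_of_conj_eq e2
  have hcent' : ∀ y ∈ Y₀.map mk, y ≠ 1 → ∀ g, Commute g y → g ∈ Y₀.map mk := by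
    rintro _ ⟨y, hy, rfl⟩ hy1 g hg
    obtain ⟨g, rfl⟩ := hsurj g
    have hy1' : y ≠ 1 := by
      rintro rfl
      exact hy1 (map_one mk)
    obtain ⟨y', hy', w, hw, rfl⟩ := hY y hy hy1' g (hcomm y g (hY2 y hy) hg)
    refine ⟨y', hy', ?_⟩
    rw [map_mul, (hmk1 w).2 hw, mul_one]
  have hy₀m : mk y₀ ≠ 1 := fun e => hy₀1 (hinjY y₀ hy₀ e)
  by_cases hbig : 12 < Nat.card (Γ₀ ⧸ W)
  · right
    rw [hcardq, cit_big (Y₀.map mk) hcardY hY2' hcent' hbig ⟨y₀, hy₀, rfl⟩ hy₀m]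
  · left
    omega

end central3

end Cfsg.Agent.Lib.HJSevenA
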