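import Mathlib
import Cfsg.Agent.Lib.HJSevenA

set_option autoImplicit false
set_option linter.all false

namespace Cfsg.Agent.Lib.HJSevenB

open Cfsg.Agent.Lib.HJBase Cfsg.Agent.Lib.CITFour Cfsg.Agent.Lib.CITFive Cfsg.Agent.Lib.HJType
open Cfsg.Agent.Lib.HJTypeB Cfsg.Agent.Lib.HJFive Cfsg.Agent.Lib.HJFiveB Cfsg.Agent.Lib.HJSevenA
open Cfsg.Agent.Lib.HJType.TC Cfsg.Agent.Lib.HJTypeB.TC
open Cfsg.Agent.S3313 (commute_of_inv order_conj order_two sq_of_order)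

theorem A5_cent3_aux : ∀ a b : alternatingGroup (Fin 5), (a ^ 3 ≠ 1 ∨ a = 1 ∨ a * b ≠ b * a) ∨
    (b = 1 ∨ b = a ∨ b = a ^ 2) := by
  decide +kernel

theorem A5_cent3 (a b : alternatingGroup (Fin 5)) (h1 : a ^ 3 = 1) (h2 : a ≠ 1) (h3 : a * b = b * a) :
    ∃ k : ℕ, b = a ^ k := by
  rcases A5_cent3_aux a b with (e | e | e) | (e | e | e)
  · exact absurd h1 e
  · exact absurd e h2
  · exact absurd h3 e
  · exact ⟨0, by simp [e]⟩
  · exact ⟨1, by simp [e]⟩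
  · exact ⟨2, e⟩

section CL

variable {C : Type*} [Group C] [Finite C] {Q : Subgroup C} {z : C}

/-- The fixed part. -/
abbrev CQ (Q : Subgroup C) (w : C) : Subgroup C := Q ⊓ Subgroup.centralizer ({w} : Set C)

omit [Finite C] in
theorem mem_CQ {w x : C} : x ∈ CQ Q w ↔ x ∈ Q ∧ Commute x w := by
  rw [CQ, Subgroup.mem_inf, Subgroup.mem_centralizer_singleton_iff]
  rfl

theorem not_mem_Q (h : HB Q z) {w : C} (h3 : w ^ 3 = 1) (h1 : w ≠ 1) : w ∉ Q := by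
  intro hw
  have h32 := pow_card_eq_one' (x := (⟨w, hw⟩ : Q))
  rw [h.card32] at h32
  have h32' : w ^ 32 = 1 := congrArg Subtype.val h32
  have := pow_gcd_eq_one.2 ⟨h32', h3⟩
  have e0 : Nat.gcd 32 3 = 1 := by norm_num
  rw [e0, pow_one] at this
  exact h1 this

theorem CQ_facts (h : HB Q z) {w : C} (h3 : w ^ 3 = 1) (h1 : w ≠ 1) :
    Nat.card (CQ Q w) = 8 ∧ Nat.card {x : C // x ∈ CQ Q w ∧ x * x = 1 ∧ x ≠ 1 ∧ x ≠ z} = 4 := by
  classical
  haveI hp3 : Fact (Nat.Prime 3) := ⟨by norm_num⟩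
  haveI hp2 : Fact (Nat.Prime 2) := ⟨Nat.prime_two⟩
  have hN := h.nQ
  have h3' : w ^ 3 ^ 1 = 1 := by simpa using h3
  have hzi : z⁻¹ = z := inv_eq_of_mul_eq_one_left h.z2
  -- the first count
  have m1 := card_mod_conj (Q : Set C) (fun u hu g => hN.conj_mem u hu g) 3 1 w h3'
  have e1 : Nat.card {x : (Q : Set C) // w * x.1 * w⁻¹ = x.1} = Nat.card (CQ Q w) := by
    apply Nat.card_congr
    exact ⟨fun x => ⟨x.1.1, x.1.2, Subgroup.mem_centralizer_singleton_iff.2 (comm_of_conj_eq x.2).symm⟩,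
      fun x => ⟨⟨x.1, x.2.1⟩, conj_eq_of_comm (Subgroup.mem_centralizer_singleton_iff.1 x.2.2).symm⟩,
      fun x => rfl, fun x => rfl⟩
  have e0 : Nat.card (Q : Set C) = 32 := h.card32
  rw [e1, e0] at m1
  have hdvd : Nat.card (CQ Q w) ∣ 32 := by
    have := Subgroup.card_dvd_of_le (inf_le_left : CQ Q w ≤ Q)
    rwa [h.card32] at this
  set q := Nat.card (CQ Q w) with hq
  -- the second count
  set A : Set C := {x : C | x ∈ Q ∧ x * x = 1 ∧ x ≠ 1 ∧ x ≠ z} with hA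
  have hAc : ∀ u ∈ A, ∀ g : C, g * u * g⁻¹ ∈ A := by
    rintro u ⟨h1', h2', h3'', h4'⟩ g
    refine ⟨hN.conj_mem u h1' g, ?_, ?_, h.conj_ne_z g h4'⟩
    · calc g * u * g⁻¹ * (g * u * g⁻¹) = g * (u * u) * g⁻¹ := by group
        _ = 1 := by rw [h2']; group
    · intro e
      apply h3''
      have e2 : u = g⁻¹ * (g * u * g⁻¹) * g := by group
      rw [e2, e]
      group
  have m2 := card_mod_conj A hAc 3 1 w h3'
  have hA10 : Nat.card A = 10 := h.card_st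
  rw [hA10] at m2
  set F := {x : A // w * x.1 * w⁻¹ = x.1} with hF
  have hzw : w * z * w⁻¹ = z := conj_eq_of_comm (h.zc w)
  let f : Function.End F := fun x => ⟨⟨x.1.1 * z, by
      obtain ⟨a1, a2, a3, a4⟩ := x.1.2
      refine ⟨Q.mul_mem a1 h.zQ, ?_, ?_, ?_⟩
      · calc x.1.1 * z * (x.1.1 * z) = x.1.1 * (z * x.1.1) * z := by group
          _ = x.1.1 * (x.1.1 * z) * z := by rw [h.zc x.1.1]
          _ = (x.1.1 * x.1.1) * (z * z) := by group
          _ = 1 := by rw [a2, h.z2, one_mul]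
      · intro e
        apply a4
        have := eq_inv_of_mul_eq_one_left e
        rw [this, hzi]
      · intro e
        exact a3 (mul_eq_right.1 e)⟩, by
      have e2 : w * (x.1.1 * z) * w⁻¹ = (w * x.1.1 * w⁻¹) * (w * z * w⁻¹) := by group
      show w * (x.1.1 * z) * w⁻¹ = x.1.1 * z
      rw [e2, x.2, hzw]⟩
  have hf : f ^ 2 ^ 1 = 1 := by
    funext x
    apply Subtype.ext
    apply Subtype.ext
    show x.1.1 * z * z = x.1.1
    rw [mul_assoc, h.z2, mul_one]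
  have m3 := card_mod_fix 2 1 f hf
  have hnofix : IsEmpty {x // f x = x} := by
    refine ⟨fun x => ?_⟩
    have e3 : x.1.1.1 * z = x.1.1.1 := congrArg (fun y : F => y.1.1) x.2
    exact h.z1 (mul_eq_left.1 e3)
  have hz0 : Nat.card {x // f x = x} = 0 := Nat.card_of_isEmpty
  rw [hz0] at m3
  have hFle : Nat.card F ≤ 10 := by
    rw [← hA10]
    exact Finite.card_subtype_le _
  -- the set in the group
  set FS : Set C := {x : C | x ∈ CQ Q w ∧ x * x = 1 ∧ x ≠ 1 ∧ x ≠ z} with hFS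
  have e2 : Nat.card FS = Nat.card F := by
    apply Nat.card_congr
    exact ⟨fun x => ⟨⟨x.1, x.2.1.1, x.2.2.1, x.2.2.2.1, x.2.2.2.2⟩,
        conj_eq_of_comm (Subgroup.mem_centralizer_singleton_iff.1 x.2.1.2).symm⟩,
      fun x => ⟨x.1.1, ⟨x.1.2.1, Subgroup.mem_centralizer_singleton_iff.2 (comm_of_conj_eq x.2).symm⟩,
        x.1.2.2.1, x.1.2.2.2.1, x.1.2.2.2.2⟩,
      fun x => rfl, fun x => rfl⟩
  have hsub : insert (1 : C) (insert z FS) ⊆ ((CQ Q w : Subgroup C) : Set C) := by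
    rintro u (rfl | rfl | hu)
    · exact Subgroup.one_mem _
    · exact mem_CQ.2 ⟨h.zQ, (h.zc w).symm⟩
    · exact hu.1
  have hle := Set.ncard_le_ncard hsub (Set.toFinite _)
  rw [Set.ncard_insert_of_notMem (by
      rintro (e | ⟨-, -, e, -⟩)
      · exact h.z1 e.symm
      · exact e rfl) (Set.toFinite _),
    Set.ncard_insert_of_notMem (by
      rintro ⟨-, -, -, e⟩
      exact e rfl) (Set.toFinite _), ← Nat.card_coe_set_eq, ← Nat.card_coe_set_eq, e2] at hle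
  have hle' : Nat.card F + 1 + 1 ≤ q := hle
  have hne32 : q ≠ 32 := by
    intro e32
    have heq := Subgroup.eq_of_le_of_card_ge (inf_le_left : CQ Q w ≤ Q) (by rw [h.card32, ← hq, e32])
    apply not_mem_Q h h3 h1
    apply h.faith
    intro x hx
    have hx' : x ∈ CQ Q w := by
      have e9 : CQ Q w = Q := heq
      rw [e9]
      exact hx
    exact (mem_CQ.1 hx').2.symm.eq
  have hqv : q = 2 ∨ q = 8 := by
    obtain ⟨k, hk, hk2⟩ := (Nat.dvd_prime_pow Nat.prime_two).1 (show q ∣ 2 ^ 5 by simpa using hdvd)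
    unfold Nat.ModEq at m1
    interval_cases k <;> norm_num at hk2 <;> omega
  unfold Nat.ModEq at m2 m3
  have hFv : Nat.card F = 4 := by omega
  refine ⟨by omega, ?_⟩
  rw [← hFv, ← e2]
  rfl

theorem CQ_cover (h : HB Q z) {w : C} (h3 : w ^ 3 = 1) (h1 : w ≠ 1) {g : C} (hg : Commute g w) :
    ∃ x ∈ CQ Q w, ∃ k : ℕ, g = x * w ^ k := by
  obtain ⟨π, hs, hq⟩ := h.iso
  have hwQ := not_mem_Q h h3 h1
  have ha3 : π w ^ 3 = 1 := by rw [← map_pow, h3, map_one]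
  have ha1 : π w ≠ 1 := fun e => hwQ ((hq w).1 e)
  have hab : π w * π g = π g * π w := by rw [← map_mul, ← map_mul, hg.eq.symm]
  obtain ⟨k, hk⟩ := A5_cent3 _ _ ha3 ha1 hab
  refine ⟨g * (w ^ k)⁻¹, mem_CQ.2 ⟨?_, ?_⟩, k, by group⟩
  · rw [← hq, map_mul, map_inv, map_pow, hk]
    simp
  · exact hg.mul_left (((Commute.refl w).pow_left k).inv_left)

end CL

variable {G : Type*} [Group G] [Finite G] {z : G} {Q : Subgroup (HH z)} {t₀ : HH z}

/-- The order-eight subgroup attached to an involution of the first type commuting with an element of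
order three. -/
theorem exists_T (h : TC z t₀ Q) {w e : G} (hw3 : w ^ 3 = 1) (hw1 : w ≠ 1) (he : IsConj z e)
    (hc : Commute e w) :
    ∃ T : Subgroup G, Nat.card T = 8 ∧ e ∈ T ∧ (∀ x ∈ T, Commute x e ∧ Commute x w) ∧
      (∀ x ∈ T, x * x = 1 ∨ x * x = e) ∧
      (∀ g, Commute g e → Commute g w → ∃ x ∈ T, ∃ k : ℕ, g = x * w ^ k) ∧
      Nat.card {x : G // x ∈ T ∧ x * x = 1 ∧ x ≠ 1 ∧ x ≠ e} = 4 := by
  obtain ⟨g, rfl⟩ := isConj_iff.1 he
  have hcb : ∀ u : G, g⁻¹ * (g * u * g⁻¹) * g = u := fun u => by group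
  have hcb' : ∀ u : G, g * (g⁻¹ * u * g) * g⁻¹ = u := fun u => by group
  have hwz : g⁻¹ * w * g ∈ HH z := by
    have := cconj hc g⁻¹
    rw [inv_inv, hcb] at this
    exact mem_HH.2 this.symm
  let w₀ : HH z := ⟨g⁻¹ * w * g, hwz⟩
  have hw₀ : w₀.1 = g⁻¹ * w * g := rfl
  have hw₀3 : w₀ ^ 3 = 1 := by
    apply Subtype.ext
    show (g⁻¹ * w * g) ^ 3 = 1
    have := conj_pow (a := g⁻¹) (b := w) (i := 3)
    rw [inv_inv] at this
    rw [this, hw3]
    group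
  have hw₀1 : w₀ ≠ 1 := by
    intro e
    have e' : g⁻¹ * w * g = 1 := congrArg Subtype.val e
    apply hw1
    rw [← hcb' w, e']
    group
  obtain ⟨hc8, hc4⟩ := CQ_facts h.b hw₀3 hw₀1
  let φ : HH z →* G := (MulAut.conj g).toMonoidHom.comp (HH z).subtype
  have hφ : ∀ x, φ x = g * x.1 * g⁻¹ := fun x => rfl
  have hφi : Function.Injective φ := by
    rw [injective_iff_map_eq_one]
    intro x hx
    rw [hφ] at hx
    apply Subtype.ext
    show x.1 = 1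
    rw [← hcb x.1, hx]
    group
  refine ⟨(CQ Q w₀).map φ, ?_, ?_, ?_, ?_, ?_, ?_⟩
  · rw [Subgroup.card_map_of_injective hφi, hc8]
  · exact ⟨zH z, mem_CQ.2 ⟨h.b.zQ, (h.b.zc w₀).symm⟩, rfl⟩
  · rintro _ ⟨x, hx, rfl⟩
    obtain ⟨hxQ, hxw⟩ := mem_CQ.1 hx
    rw [hφ]
    refine ⟨cconj (mem_HH.1 x.2) g, ?_⟩
    have := cconj (show Commute x.1 w₀.1 from congrArg Subtype.val hxw) g
    rwa [hw₀, hcb'] at this
  · rintro _ ⟨x, hx, rfl⟩
    obtain ⟨hxQ, hxw⟩ := mem_CQ.1 hx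
    rcases h.b.sq x hxQ with e | e
    · left
      rw [← map_mul, e, map_one]
    · right
      rw [← map_mul, e]
      rfl
  · intro a hae haw
    have h1 := cconj hae g⁻¹
    rw [inv_inv, hcb] at h1
    have h2 : g⁻¹ * a * g ∈ HH z := mem_HH.2 h1
    have h3 : Commute (⟨g⁻¹ * a * g, h2⟩ : HH z) w₀ := by
      apply Subtype.ext
      have := cconj haw g⁻¹
      rw [inv_inv] at this
      exact this
    obtain ⟨x, hx, k, e⟩ := CQ_cover h.b hw₀3 hw₀1 h3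
    refine ⟨φ x, ⟨x, hx, rfl⟩, k, ?_⟩
    have e' : g⁻¹ * a * g = x.1 * w₀.1 ^ k := congrArg Subtype.val e
    rw [hφ, ← hcb' a, e', mul_assoc, mul_assoc, hw₀]
    have := conj_pow (a := g⁻¹) (b := w) (i := k)
    rw [inv_inv] at this
    rw [this]
    group
  · rw [← hc4]
    symm
    apply Nat.card_congr
    refine ⟨fun x => ⟨φ x.1, ⟨⟨x.1, x.2.1, rfl⟩, ?_, ?_, ?_⟩⟩, fun y => ?_, ?_, ?_⟩
    · rw [← map_mul, x.2.2.1, map_one]
    · intro e
      exact x.2.2.2.1 (hφi (by rw [e, map_one]))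
    · intro e
      exact x.2.2.2.2 (hφi e)
    · have hy := y.2.1
      exact ⟨(Classical.choose hy), (Classical.choose_spec hy).1, by
          apply hφi
          rw [map_mul, (Classical.choose_spec hy).2, y.2.2.1, map_one], by
          intro e
          apply y.2.2.2.1
          rw [← (Classical.choose_spec hy).2, e, map_one], by
          intro e
          apply y.2.2.2.2
          rw [← (Classical.choose_spec hy).2, e]
          rfl⟩
    · intro x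
      apply Subtype.ext
      apply hφi
      exact (Classical.choose_spec (show φ x.1 ∈ (CQ Q w₀).map φ from ⟨x.1, x.2.1, rfl⟩)).2
    · intro y
      apply Subtype.ext
      exact (Classical.choose_spec y.2.1).2

/-- The extension structure on the centralizer when all involutions are of the first type. -/
theorem DD_of (h : TC z t₀ Q) {w : G} (hw3 : w ^ 3 = 1) (hw1 : w ≠ 1)
    (hall : ∀ v : G, v * v = 1 → v ≠ 1 → Commute v w → IsConj z v) : DD (zH w : HH w) := by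
  refine ⟨Subtype.ext hw3, fun e => hw1 (congrArg Subtype.val e),
    fun g => Subtype.ext (mem_HH.1 g.2), ?_⟩
  intro a haa ha1
  have haa' : a.1 * a.1 = 1 := congrArg Subtype.val haa
  have ha1' : a.1 ≠ 1 := fun e => ha1 (Subtype.ext e)
  have haw : Commute a.1 w := mem_HH.1 a.2
  obtain ⟨T, h8, haT, hcT, hsq, hcov, h4⟩ := exists_T h hw3 hw1 (hall a.1 haa' ha1' haw) haw
  have hle : T ≤ HH w := fun x hx => mem_HH.2 (hcT x hx).2
  refine ⟨T.subgroupOf (HH w), ?_, Subgroup.mem_subgroupOf.2 haT, ?_, ?_, ?_, ?_⟩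
  · rw [← h8]
    exact Nat.card_congr (Subgroup.subgroupOfEquivOfLe hle).toEquiv
  · intro x hx
    exact Subtype.ext (hcT x.1 (Subgroup.mem_subgroupOf.1 hx)).1
  · intro x hx
    exact (hsq x.1 (Subgroup.mem_subgroupOf.1 hx)).imp Subtype.ext Subtype.ext
  · intro g hg
    obtain ⟨x, hx, k, e⟩ := hcov g.1 (congrArg Subtype.val hg) (mem_HH.1 g.2)
    exact ⟨⟨x, hle hx⟩, Subgroup.mem_subgroupOf.2 hx, k, Subtype.ext e⟩
  · rw [← h4]
    apply Nat.card_congr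
    refine ⟨fun x => ⟨x.1.1, Subgroup.mem_subgroupOf.1 x.2.1, congrArg Subtype.val x.2.2.1,
        fun e => x.2.2.2.1 (Subtype.ext e), fun e => x.2.2.2.2 (Subtype.ext e)⟩,
      fun x => ⟨⟨x.1, hle x.2.1⟩, Subgroup.mem_subgroupOf.2 x.2.1, Subtype.ext x.2.2.1,
        fun e => x.2.2.2.1 (congrArg Subtype.val e), fun e => x.2.2.2.2 (congrArg Subtype.val e)⟩,
      fun x => rfl, fun x => rfl⟩

section TT

variable (h : TC z t₀ Q) {v₀ : LL t₀} (hv₀ : v₀ ∈ setA z t₀) (hn : ¬ Commute (bL t₀) v₀)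

include h hv₀ hn

theorem w_mem_M {w : G} (hw : w ∈ HH t₀.1) (h3 : w ^ 3 = 1) : (⟨w, hw⟩ : LL t₀) ∈ MM z t₀ := by
  obtain ⟨y, m, h1, h2, h3', e⟩ := decomp h.ct (card15 h) h.bL_mem hv₀ hn (⟨w, hw⟩ : LL t₀)
  have hy : y ∈ YY t₀ v₀ := mem_YY.2 ⟨h1, h2⟩
  have hc : Commute y m := Y_central h hv₀ hn hy m
  have hyy := Y_sq h hv₀ hn hy
  have h6 : (y * m) ^ 3 = 1 := by
    rw [← e]
    apply Subtype.ext
    exact h3
  rw [hc.mul_pow] at h6
  have hy5 : y ^ 3 = y := by rw [pow_three_eq, hyy, mul_one]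
  rw [hy5] at h6
  have hy2 : y = (m ^ 3)⁻¹ := eq_inv_of_mul_eq_one_left h6
  have hyM : y ∈ MM z t₀ := by
    rw [hy2]
    exact Subgroup.inv_mem _ (Subgroup.pow_mem _ h3' 3)
  have hy1 := Y_M h hv₀ hn hy hyM
  rw [e, hy1, one_mul]
  exact h3'

/-- Elements of the second centralizer commuting with an element of order three. -/
theorem cent_L3 {w : G} (hw : w ∈ HH t₀.1) (h3 : w ^ 3 = 1) (h1 : w ≠ 1) {g : G} (hg : g ∈ HH t₀.1)
    (hc : Commute g w) : ∃ y ∈ Yg t₀ v₀, ∃ k : ℕ, g = y * w ^ k := by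
  obtain ⟨e₂⟩ := M_alt h.ct (card15 h) h.bL_mem
  have hwM := w_mem_M h hv₀ hn hw h3
  obtain ⟨y₂, m, a1, a2, a3, e⟩ := decomp h.ct (card15 h) h.bL_mem hv₀ hn (⟨g, hg⟩ : LL t₀)
  have hy₂ : y₂ ∈ YY t₀ v₀ := mem_YY.2 ⟨a1, a2⟩
  have hy₂G : y₂.1 ∈ Yg t₀ v₀ := mem_Yg_of y₂.2 hy₂
  have hgval : g = y₂.1 * m.1 := congrArg Subtype.val e
  have hy₂w : Commute y₂.1 w := ((mem_Yg' h hv₀ hn).1 hy₂G).2 w hw
  have hmw : Commute m.1 w := by
    rw [hgval] at hc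
    have e1 : m.1 = y₂.1⁻¹ * (y₂.1 * m.1) := by group
    rw [e1]
    exact hy₂w.inv_left.mul_left hc
  let a : MM z t₀ := ⟨⟨w, hw⟩, hwM⟩
  let b : MM z t₀ := ⟨m, a3⟩
  have ha3 : e₂ a ^ 3 = 1 := by
    rw [← map_pow]
    have : a ^ 3 = 1 := Subtype.ext (Subtype.ext h3)
    rw [this, map_one]
  have ha1 : e₂ a ≠ 1 := by
    intro e0
    have := (map_eq_one_iff e₂ e₂.injective).1 e0
    exact h1 (congrArg (fun w : MM z t₀ => w.1.1) this)
  have hab : e₂ a * e₂ b = e₂ b * e₂ a := by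
    rw [← map_mul, ← map_mul]
    congr 1
    exact Subtype.ext (Subtype.ext hmw.symm.eq)
  obtain ⟨k, hk⟩ := A5_cent3 _ _ ha3 ha1 hab
  have hbk : b = a ^ k := by
    apply e₂.injective
    rw [hk, map_pow]
  have hmk : m.1 = w ^ k := by
    have := congrArg (fun w : MM z t₀ => w.1.1) hbk
    simpa [a, b] using this
  exact ⟨y₂.1, hy₂G, k, by rw [hgval, hmk]⟩

/-- Involutions of the second centralizer commuting with an element of order three lie in the central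
four-subgroup. -/
theorem comm_Y {w : G} (hw : w ∈ HH t₀.1) (h3 : w ^ 3 = 1) (h1 : w ≠ 1) {v : G} (hv : v ∈ HH t₀.1)
    (hvv : v * v = 1) (hc : Commute v w) : v ∈ Yg t₀ v₀ := by
  obtain ⟨y, hy, k, rfl⟩ := cent_L3 h hv₀ hn hw h3 h1 hv hc
  obtain ⟨y', hy', e⟩ := hy
  have hyy : y * y = 1 := by
    rw [← e]
    exact congrArg Subtype.val (Y_sq h hv₀ hn hy')
  have hyc : Commute y (w ^ k) := (((mem_Yg' h hv₀ hn).1 ⟨y', hy', e⟩).2 w hw).pow_right k
  have h4 : (w ^ k) * (w ^ k) = 1 := by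
    have e1 : (y * w ^ k) * (y * w ^ k) = (y * y) * (w ^ k * w ^ k) := by
      calc (y * w ^ k) * (y * w ^ k) = y * (w ^ k * y) * w ^ k := by group
        _ = y * (y * w ^ k) * w ^ k := by rw [hyc.eq.symm]
        _ = _ := by group
    rw [e1, hyy, one_mul] at hvv
    exact hvv
  have h5 : (w ^ k) ^ 3 = 1 := by
    rw [← pow_mul, mul_comm, pow_mul, h3, one_pow]
  have h6 := cent_sq3 h5 h4
  rw [h6, mul_one, ← e]
  exact ⟨y', hy', rfl⟩

/-- Nontrivial elements of the central four-subgroup are of the second type. -/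
theorem Y_t {y : G} (hy : y ∈ Yg t₀ v₀) (hy1 : y ≠ 1) : IsConj t₀.1 y := by
  obtain ⟨y', hy', rfl⟩ := hy
  have hyy : y'.1 * y'.1 = 1 := congrArg Subtype.val (Y_sq h hv₀ hn hy')
  rcases h.all y'.1 hyy hy1 with e | e
  · exfalso
    have hA : y' ∈ setA z t₀ := e
    have := Y_M h hv₀ hn hy' (Subgroup.subset_closure hA)
    exact hy1 (congrArg Subtype.val this)
  · exact e

/-- All involutions commuting with an element of order three of the second centralizer are of the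
second type. -/
theorem T_all {w : G} (hw : w ∈ HH t₀.1) (h3 : w ^ 3 = 1) (h1 : w ≠ 1) {v : G} (hvv : v * v = 1)
    (hv1 : v ≠ 1) (hvw : Commute v w) : IsConj t₀.1 v := by
  by_cases hex : ∃ c : G, c * c = 1 ∧ c ≠ 1 ∧ Commute c w ∧ Commute c t₀.1 ∧ Commute c v
  · obtain ⟨c, hcc, hc1, hcw, hct, hcv⟩ := hex
    have hcL : c ∈ HH t₀.1 := mem_HH.2 hct
    have hcY := comm_Y h hv₀ hn hw h3 h1 hcL hcc hcw
    have hvL : v ∈ HH t₀.1 := by
      rw [← HH_eq h hv₀ hn hcY hc1]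
      exact mem_HH.2 hcv.symm
    exact Y_t h hv₀ hn (comm_Y h hv₀ hn hw h3 h1 hvL hvv hvw) hv1
  · have htw : Commute t₀.1 w := (mem_HH.1 hw).symm
    have := conj_of_inv (Γ := HH w) (a := ⟨t₀.1, mem_HH.2 htw⟩) (b := ⟨v, mem_HH.2 hvw⟩)
      (Subtype.ext h.tt') (Subtype.ext hvv) (fun c hcc hc1 h1' h2' => hex ⟨c.1, congrArg Subtype.val hcc,
        fun e => hc1 (Subtype.ext e), mem_HH.1 c.2, congrArg Subtype.val h1', congrArg Subtype.val h2'⟩)
    obtain ⟨d, hd⟩ := isConj_iff.1 this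
    exact isConj_iff.2 ⟨d.1, congrArg Subtype.val hd⟩

theorem T_all' {w t v : G} (ht : IsConj t₀.1 t) (htw : Commute t w) (h3 : w ^ 3 = 1) (h1 : w ≠ 1)
    (hvv : v * v = 1) (hv1 : v ≠ 1) (hvw : Commute v w) : IsConj t₀.1 v := by
  obtain ⟨c, rfl⟩ := isConj_iff.1 ht
  have e1 : c⁻¹ * (c * t₀.1 * c⁻¹) * c⁻¹⁻¹ = t₀.1 := by group
  have hw' : c⁻¹ * w * c⁻¹⁻¹ ∈ HH t₀.1 := by
    have := cconj htw c⁻¹
    rw [e1] at this
    exact mem_HH.2 this.symm
  have hw3 : (c⁻¹ * w * c⁻¹⁻¹) ^ 3 = 1 := by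
    rw [conj_pow, h3]
    group
  have hw1 : c⁻¹ * w * c⁻¹⁻¹ ≠ 1 := by
    intro e
    apply h1
    have e2 : w = c * (c⁻¹ * w * c⁻¹⁻¹) * c⁻¹ := by group
    rw [e2, e]
    group
  have hvv' : (c⁻¹ * v * c⁻¹⁻¹) * (c⁻¹ * v * c⁻¹⁻¹) = 1 := by
    calc (c⁻¹ * v * c⁻¹⁻¹) * (c⁻¹ * v * c⁻¹⁻¹) = c⁻¹ * (v * v) * c⁻¹⁻¹ := by group
      _ = 1 := by rw [hvv]; group
  have hv1' : c⁻¹ * v * c⁻¹⁻¹ ≠ 1 := by
    intro e
    apply hv1
    have e2 : v = c * (c⁻¹ * v * c⁻¹⁻¹) * c⁻¹ := by group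
    rw [e2, e]
    group
  have := T_all h hv₀ hn hw' hw3 hw1 hvv' hv1' (cconj hvw c⁻¹)
  exact this.trans (isConj_iff.2 ⟨c, by group⟩)

/-- If one involution commuting with an element of order three is of the first type then all are. -/
theorem Z_all {w e v : G} (he : IsConj z e) (hew : Commute e w) (h3 : w ^ 3 = 1) (h1 : w ≠ 1)
    (hvv : v * v = 1) (hv1 : v ≠ 1) (hvw : Commute v w) : IsConj z v := by
  rcases h.all v hvv hv1 with e1 | e1
  · exact e1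
  · exfalso
    have hee : e * e = 1 := zconj_inv he h.zz
    have he1 : e ≠ 1 := zconj_ne he h.z1
    have := T_all' h hv₀ hn e1 hvw h3 h1 hee he1 hew
    exact h.zt (he.trans this.symm)

/-- The order of the centralizer of an element of order three of the second type. -/
theorem T_card₀ {w : G} (hw : w ∈ HH t₀.1) (h3 : w ^ 3 = 1) (h1 : w ≠ 1) :
    Nat.card (HH w) ≤ 36 ∨ Nat.card (HH w) = 180 := by
  have hYle : Yg t₀ v₀ ≤ HH w := by
    intro y hy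
    exact mem_HH.2 (((mem_Yg' h hv₀ hn).1 hy).2 w hw)
  let c : HH w := zH w
  have hc3 : c ^ 3 = 1 := Subtype.ext h3
  have hc1 : c ≠ 1 := fun e => h1 (congrArg Subtype.val e)
  have hcc : ∀ g : HH w, Commute g c := fun g => Subtype.ext (mem_HH.1 g.2)
  let Y₀ : Subgroup (HH w) := (Yg t₀ v₀).subgroupOf (HH w)
  have hY4 : Nat.card Y₀ = 4 := by
    rw [← card_Yg h hv₀ hn]
    exact Nat.card_congr (Subgroup.subgroupOfEquivOfLe hYle).toEquiv
  have hY2 : ∀ y ∈ Y₀, y * y = 1 := by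
    intro y hy
    apply Subtype.ext
    obtain ⟨y', hy', e⟩ := hy
    have e' : y'.1 = y.1 := e
    show y.1 * y.1 = 1
    rw [← e']
    exact congrArg Subtype.val (Y_sq h hv₀ hn hy')
  have hY : ∀ y ∈ Y₀, y ≠ 1 → ∀ g : HH w, Commute g y →
      ∃ y' ∈ Y₀, ∃ w' ∈ Subgroup.zpowers c, g = y' * w' := by
    intro y hy hy1 g hg
    have hy' : y.1 ∈ Yg t₀ v₀ := hy
    have hy1' : y.1 ≠ 1 := fun e => hy1 (Subtype.ext e)
    have hgy : Commute g.1 y.1 := congrArg Subtype.val hg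
    have hgL : g.1 ∈ HH t₀.1 := by
      rw [← HH_eq h hv₀ hn hy' hy1']
      exact mem_HH.2 hgy
    obtain ⟨y₂, hy₂, k, e⟩ := cent_L3 h hv₀ hn hw h3 h1 hgL (mem_HH.1 g.2)
    refine ⟨⟨y₂, hYle hy₂⟩, hy₂, c ^ k, Subgroup.npow_mem_zpowers c k, ?_⟩
    apply Subtype.ext
    exact e
  have ht := t_mem h hv₀ hn
  exact central_gen3 c hc3 hc1 hcc Y₀ hY4 hY2 hY (y₀ := ⟨t₀.1, hYle ht⟩) ht
    (fun e => h.t1 (congrArg Subtype.val e))

theorem T_card {w t : G} (ht : IsConj t₀.1 t) (htw : Commute t w) (h3 : w ^ 3 = 1) (h1 : w ≠ 1) :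
    Nat.card (HH w) ≤ 36 ∨ Nat.card (HH w) = 180 := by
  obtain ⟨c, rfl⟩ := isConj_iff.1 ht
  have e1 : c⁻¹ * (c * t₀.1 * c⁻¹) * c⁻¹⁻¹ = t₀.1 := by group
  have hw' : c⁻¹ * w * c⁻¹⁻¹ ∈ HH t₀.1 := by
    have := cconj htw c⁻¹
    rw [e1] at this
    exact mem_HH.2 this.symm
  have hw3 : (c⁻¹ * w * c⁻¹⁻¹) ^ 3 = 1 := by
    rw [conj_pow, h3]
    group
  have hw1 : c⁻¹ * w * c⁻¹⁻¹ ≠ 1 := by
    intro e
    apply h1
    have e2 : w = c * (c⁻¹ * w * c⁻¹⁻¹) * c⁻¹ := by group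
    rw [e2, e]
    group
  have := T_card₀ h hv₀ hn hw' hw3 hw1
  rwa [card_centralizer_conj] at this

end TT

end Cfsg.Agent.Lib.HJSevenB
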