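import Mathlib
import Cfsg.Agent.Lib.HJSevenB

set_option autoImplicit false
set_option linter.all false

namespace Cfsg.Agent.Lib.HJSevenC

open Cfsg.Agent.Lib.HJBase Cfsg.Agent.Lib.CITFour Cfsg.Agent.Lib.CITFive Cfsg.Agent.Lib.HJType
open Cfsg.Agent.Lib.HJTypeB Cfsg.Agent.Lib.HJFive Cfsg.Agent.Lib.HJFiveB Cfsg.Agent.Lib.HJSevenA
open Cfsg.Agent.Lib.HJSevenB
open Cfsg.Agent.Lib.HJType.TC Cfsg.Agent.Lib.HJTypeB.TC
open Cfsg.Agent.S3313 (commute_of_inv order_conj order_two sq_of_order)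

section Gen

variable {G : Type*} [Group G] [Finite G]

/-- Cauchy in a subgroup. -/
theorem cauchy_sub (S : Subgroup G) (p : ℕ) [Fact p.Prime] (hp : p ∣ Nat.card S) :
    ∃ x ∈ S, orderOf x = p := by
  obtain ⟨x, hx⟩ := exists_prime_orderOf_dvd_card' (G := S) p hp
  exact ⟨x.1, x.2, (Subgroup.orderOf_coe x).trans hx⟩

theorem dvd_of_mem (S : Subgroup G) {x : G} (hx : x ∈ S) : orderOf x ∣ Nat.card S := by
  have hle : Subgroup.zpowers x ≤ S := Subgroup.zpowers_le.2 hx
  have := Subgroup.card_dvd_of_le hle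
  rwa [Nat.card_zpowers] at this

/-- A subgroup with order divisible by the full power of a prime contains a Sylow subgroup. -/
theorem exists_syl_le (S : Subgroup G) (p k : ℕ) [Fact p.Prime] (hk : p ^ k ∣ Nat.card S)
    (hG : ¬ p ^ (k + 1) ∣ Nat.card G) : ∃ R : Sylow p G, (R : Subgroup G) ≤ S := by
  obtain ⟨R₀, hR₀⟩ := Sylow.exists_subgroup_card_pow_prime (G := S) p hk
  let R₁ : Subgroup G := R₀.map S.subtype
  have hc : Nat.card R₁ = p ^ k := by
    rw [Subgroup.card_map_of_injective Subtype.val_injective, hR₀]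
  have hpg : IsPGroup p R₁ := IsPGroup.of_card hc
  have hidx : ¬ p ∣ R₁.index := by
    intro hd
    apply hG
    rw [← Subgroup.card_mul_index R₁, hc, pow_succ]
    exact mul_dvd_mul_left _ hd
  refine ⟨hpg.toSylow hidx, ?_⟩
  rintro _ ⟨x, -, rfl⟩
  exact x.2

/-- A element of prime power order commuting with a Sylow subgroup belongs to it. -/
theorem mem_syl_of_comm (p : ℕ) [Fact p.Prime] (R : Sylow p G) {x : G} {n : ℕ} (hx : x ^ p ^ n = 1)
    (hc : ∀ r ∈ (R : Subgroup G), Commute r x) : x ∈ (R : Subgroup G) := by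
  have hp : IsPGroup p (Subgroup.zpowers x) := by
    intro g
    obtain ⟨k, hk⟩ := Subgroup.mem_zpowers_iff.1 g.2
    refine ⟨n, ?_⟩
    apply Subtype.ext
    show (g.1) ^ p ^ n = 1
    rw [← hk, ← zpow_natCast, ← zpow_mul, mul_comm, zpow_mul, zpow_natCast, hx, one_zpow]
  have hxN : x ∈ Subgroup.normalizer ((R : Subgroup G) : Set G) := by
    rw [Subgroup.mem_normalizer_iff]
    intro y
    constructor
    · intro hy
      rw [conj_eq_of_comm (hc y hy).symm]
      exact hy
    · intro hy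
      have e := conj_eq_of_comm (hc _ hy).symm
      have e2 : y = x⁻¹ * (x * y * x⁻¹) * x := by group
      have e3 : x⁻¹ * (x * y * x⁻¹) * x = x * y * x⁻¹ := by
        calc x⁻¹ * (x * y * x⁻¹) * x = x⁻¹ * (x * (x * y * x⁻¹) * x⁻¹) * x := by rw [e]
          _ = x * y * x⁻¹ := by group
      rw [e2, e3]
      exact hy
  have := hp.inf_normalizer_sylow R
  have hm : x ∈ Subgroup.zpowers x ⊓ Subgroup.normalizer (R : Set G) :=
    ⟨Subgroup.mem_zpowers x, hxN⟩
  rw [this] at hm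
  exact hm.2

/-- Conjugation of a Sylow subgroup onto another. -/
theorem syl_conj_ex (p : ℕ) [Fact p.Prime] (R P : Sylow p G) :
    ∃ c : G, (∀ x ∈ (R : Subgroup G), c * x * c⁻¹ ∈ (P : Subgroup G)) ∧
      (∀ y ∈ (P : Subgroup G), c⁻¹ * y * c ∈ (R : Subgroup G)) := by
  obtain ⟨c, hc⟩ := MulAction.exists_smul_eq G R P
  refine ⟨c, ?_, ?_⟩
  · intro x hx
    rw [← hc]
    show c * x * c⁻¹ ∈ ((c • R : Sylow p G) : Subgroup G)
    rw [Sylow.coe_subgroup_smul]
    have := Subgroup.smul_mem_pointwise_smul x (MulAut.conj c) (R : Subgroup G) hx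
    simpa [MulAut.smul_def] using this
  · intro y hy
    rw [← hc] at hy
    have hy' : y ∈ ((c • R : Sylow p G) : Subgroup G) := hy
    rw [Sylow.coe_subgroup_smul, Cfsg.Agent.Lib.PCore.mem_conj_smul_iff] at hy'
    exact hy'

theorem exists_syl_mem (p : ℕ) [Fact p.Prime] {x : G} (hx : orderOf x = p) : ∃ P : Sylow p G, x ∈ (P : Subgroup G) := by
  have hc : Nat.card (Subgroup.zpowers x) = p ^ 1 := by
    rw [Nat.card_zpowers, hx, pow_one]
  have hp : IsPGroup p (Subgroup.zpowers x) := IsPGroup.of_card hc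
  obtain ⟨P, hP⟩ := hp.exists_le_sylow
  exact ⟨P, hP (Subgroup.mem_zpowers x)⟩

/-- Groups of order 27 with large center are abelian. -/
theorem ab_of_center {R : Type*} [Group R] [Finite R] (hR : Nat.card R = 27)
    (hZ : 3 < Nat.card (Subgroup.center R)) (a b : R) : a * b = b * a := by
  haveI hp3 : Fact (Nat.Prime 3) := ⟨by norm_num⟩
  have hd : Nat.card (Subgroup.center R) ∣ 3 ^ 3 := by
    have := Subgroup.card_subgroup_dvd_card (Subgroup.center R)
    rw [hR] at this
    simpa using this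
  have hi := Subgroup.card_mul_index (Subgroup.center R)
  rw [hR] at hi
  obtain ⟨k, hk, hk2⟩ := (Nat.dvd_prime_pow (by norm_num : Nat.Prime 3)).1 hd
  have hidx : (Subgroup.center R).index = 3 ∨ (Subgroup.center R).index = 1 := by
    rw [hk2] at hi hZ
    interval_cases k
    · norm_num at hZ
    · norm_num at hZ
    · left
      have : 9 * (Subgroup.center R).index = 27 := hi
      omega
    · right
      have : 27 * (Subgroup.center R).index = 27 := hi
      omega
  have hcq : Nat.card (R ⧸ Subgroup.center R) = 3 ∨ Nat.card (R ⧸ Subgroup.center R) = 1 := hidx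
  haveI : IsCyclic (R ⧸ Subgroup.center R) := by
    rcases hcq with e | e
    · exact isCyclic_of_prime_card e
    · haveI : Subsingleton (R ⧸ Subgroup.center R) := (Nat.card_eq_one_iff_unique.1 e).1
      exact isCyclic_of_subsingleton
  exact commutative_of_cyclic_center_quotient (QuotientGroup.mk' (Subgroup.center R))
    (by rw [QuotientGroup.ker_mk']) a b

/-- A nonabelian subgroup of order 27 has center of order at most three. -/
theorem center_le3 (P : Subgroup G) (hP : Nat.card P = 27) (hn : ¬ ∀ x ∈ P, ∀ y ∈ P, Commute x y) :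
    Nat.card ↥(P ⊓ Subgroup.centralizer (P : Set G)) ≤ 3 := by
  by_contra hne
  push Not at hne
  apply hn
  have e : Nat.card ↥(P ⊓ Subgroup.centralizer (P : Set G)) = Nat.card (Subgroup.center P) := by
    apply Nat.card_congr
    refine ⟨fun x => ⟨⟨x.1, x.2.1⟩, ?_⟩, fun x => ⟨x.1.1, x.1.2, ?_⟩, fun x => rfl, fun x => rfl⟩
    · rw [Subgroup.mem_center_iff]
      intro g
      apply Subtype.ext
      exact (Subgroup.mem_centralizer_iff.1 x.2.2) g.1 g.2
    · show (x.1.1 : G) ∈ Subgroup.centralizer (P : Set G)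
      rw [Subgroup.mem_centralizer_iff]
      intro g hg
      have := (Subgroup.mem_center_iff.1 x.2) ⟨g, hg⟩
      exact congrArg Subtype.val this
  rw [e] at hne
  intro x hx y hy
  have := ab_of_center hP hne ⟨x, hx⟩ ⟨y, hy⟩
  exact congrArg Subtype.val this

/-- Conjugation acts commutatively on a cyclic subgroup. -/
theorem comm_invol {Γ : Type*} [Group Γ] [Finite Γ] {d e₁ e₂ : Γ}
    (h1 : e₁ ∈ Subgroup.normalizer ((Subgroup.zpowers d : Subgroup Γ) : Set Γ))
    (h2 : e₂ ∈ Subgroup.normalizer ((Subgroup.zpowers d : Subgroup Γ) : Set Γ))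
    (he₁ : e₁ * e₁ = 1) (he₂ : e₂ * e₂ = 1) : Commute ((e₁ * e₂) * (e₁ * e₂)) d := by
  obtain ⟨i, hi⟩ := Subgroup.mem_zpowers_iff.1 (norm_conj h1)
  obtain ⟨j, hj⟩ := Subgroup.mem_zpowers_iff.1 (norm_conj h2)
  have hi1 : ∀ n : ℤ, e₁ * d ^ n * e₁⁻¹ = d ^ (i * n) := by
    intro n
    rw [← conj_zpow, ← hi, zpow_mul]
  have hj1 : ∀ n : ℤ, e₂ * d ^ n * e₂⁻¹ = d ^ (j * n) := by
    intro n
    rw [← conj_zpow, ← hj, zpow_mul]
  have e1i : e₁⁻¹ = e₁ := inv_eq_of_mul_eq_one_left he₁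
  have e2i : e₂⁻¹ = e₂ := inv_eq_of_mul_eq_one_left he₂
  have hii : d ^ (i * i) = d := by
    have e3 : e₁ * (e₁ * d * e₁⁻¹) * e₁⁻¹ = d := by
      calc e₁ * (e₁ * d * e₁⁻¹) * e₁⁻¹ = (e₁ * e₁) * d * (e₁ * e₁)⁻¹ := by group
        _ = d := by rw [he₁]; group
    have := hi1 i
    rw [hi, e3] at this
    exact this.symm
  have hjj : d ^ (j * j) = d := by
    have e3 : e₂ * (e₂ * d * e₂⁻¹) * e₂⁻¹ = d := by
      calc e₂ * (e₂ * d * e₂⁻¹) * e₂⁻¹ = (e₂ * e₂) * d * (e₂ * e₂)⁻¹ := by group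
        _ = d := by rw [he₂]; group
    have := hj1 j
    rw [hj, e3] at this
    exact this.symm
  have hX : (e₁ * e₂) * (e₁ * e₂) * d * ((e₁ * e₂) * (e₁ * e₂))⁻¹ = d := by
    calc (e₁ * e₂) * (e₁ * e₂) * d * ((e₁ * e₂) * (e₁ * e₂))⁻¹
        = e₁ * (e₂ * (e₁ * (e₂ * d * e₂⁻¹) * e₁⁻¹) * e₂⁻¹) * e₁⁻¹ := by group
      _ = d ^ (i * (j * (i * j))) := by rw [← hj, hi1, hj1, hi1]
      _ = (d ^ (i * i)) ^ (j * j) := by
        rw [← zpow_mul]
        congr 1
        ring
      _ = d ^ (j * j) := by rw [hii]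
      _ = d := hjj
  exact comm_of_conj_eq hX

/-- Three conjugates. -/
theorem ot_ge3 {d r : G} (S : Set G) (hS1 : d ∈ S) (hS : ∀ y ∈ S, r * y * r⁻¹ ∈ S) (h63 : r ^ 63 = 1)
    (hn : ¬ Commute r d) : 3 ≤ S.ncard := by
  have hne1 : r * d * r⁻¹ ≠ d := fun e => hn (comm_of_conj_eq e)
  have e1 : (r * r) * d * (r * r)⁻¹ = r * (r * d * r⁻¹) * r⁻¹ := by group
  have hne2 : (r * r) * d * (r * r)⁻¹ ≠ d := by
    intro e
    have hc : Commute (r * r) d := comm_of_conj_eq e
    apply hn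
    have e2 : r = (r * r) ^ 32 * (r ^ 63)⁻¹ := by
      rw [← pow_two, ← pow_mul]
      group
    rw [e2, h63]
    simpa using hc.pow_left 32
  have hne3 : (r * r) * d * (r * r)⁻¹ ≠ r * d * r⁻¹ := by
    intro e
    apply hne1
    rw [e1] at e
    have : r⁻¹ * (r * (r * d * r⁻¹) * r⁻¹) * r = r⁻¹ * (r * d * r⁻¹) * r := by rw [e]
    have e3 : r⁻¹ * (r * (r * d * r⁻¹) * r⁻¹) * r = r * d * r⁻¹ := by group
    have e4 : r⁻¹ * (r * d * r⁻¹) * r = d := by group
    rwa [e3, e4] at this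
  have hthree : ({d, r * d * r⁻¹, (r * r) * d * (r * r)⁻¹} : Set G).ncard = 3 := by
    rw [Set.ncard_eq_three]
    exact ⟨_, _, _, hne1.symm, hne2.symm, hne3.symm, rfl⟩
  have hsub : ({d, r * d * r⁻¹, (r * r) * d * (r * r)⁻¹} : Set G) ⊆ S := by
    rintro y (rfl | rfl | rfl)
    · exact hS1
    · exact hS _ hS1
    · rw [e1]
      exact hS _ (hS _ hS1)
  have := Set.ncard_le_ncard hsub (Set.toFinite _)
  omega

end Gen

section Main

variable {G : Type*} [Group G] [Finite G] {z : G} {Q : Subgroup (HH z)} {t₀ : HH z}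

/-- The normalizer of a cyclic subgroup. -/
abbrev NN (d : G) : Subgroup G := Subgroup.normalizer ((Subgroup.zpowers d : Subgroup G) : Set G)

/-- The orbit under the normalizer. -/
abbrev OT (d : G) : Set G := {y | ∃ g ∈ NN d, g * d * g⁻¹ = y}

theorem HH_le_NN (d : G) : HH d ≤ NN d := by
  intro g hg
  apply mem_norm_of
  rw [conj_eq_of_comm (mem_HH.1 hg)]
  exact Subgroup.mem_zpowers d

theorem OT_card (d : G) : Nat.card (OT d) * Nat.card (HH d) = Nat.card (NN d) := by
  have := orbit_card (NN d) d (OT d) (fun g hg => ⟨g, hg, rfl⟩) (fun y hy => hy)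
  have e : NN d ⊓ Subgroup.centralizer ({d} : Set G) = HH d := inf_eq_right.2 (HH_le_NN d)
  rwa [e] at this

variable (h : TC z t₀ Q) {v₀ : LL t₀} (hv₀ : v₀ ∈ setA z t₀) (hn : ¬ Commute (bL t₀) v₀)

include h hv₀ hn

theorem type5 {x : G} (hx : orderOf x = 5) :
    (∃ u, IsConj z u ∧ Commute u x) ∨ (∃ u, IsConj t₀.1 u ∧ Commute u x) := by
  haveI : Fact (Nat.Prime 5) := ⟨by norm_num⟩
  obtain ⟨P⟩ : Nonempty (Sylow 5 G) := inferInstance
  obtain ⟨c, hc⟩ := conj_into_syl hx P
  have hne : c * x * c⁻¹ ≠ 1 := by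
    intro e
    have e2 : x = 1 := by
      have e3 : x = c⁻¹ * (c * x * c⁻¹) * c := by group
      rw [e3, e]
      group
    rw [e2] at hx
    simp at hx
  have back : ∀ w u : G, IsConj w u → Commute u (c * x * c⁻¹) → ∃ u', IsConj w u' ∧ Commute u' x := by
    intro w u hu hcu
    refine ⟨c⁻¹ * u * c⁻¹⁻¹, hu.trans (isConj_iff.2 ⟨c⁻¹, rfl⟩), ?_⟩
    have := cconj hcu c⁻¹
    have e : c⁻¹ * (c * x * c⁻¹) * c⁻¹⁻¹ = x := by group
    rwa [e] at this
  rcases (counts h hv₀ hn P).1 _ hc hne with ⟨u, hu, hcu⟩ | ⟨u, hu, hcu⟩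
  · exact Or.inl (back _ _ hu hcu)
  · exact Or.inr (back _ _ hu hcu)

theorem card_five {x : G} (hx : orderOf x = 5) : Nat.card (HH x) = 50 ∨ Nat.card (HH x) = 300 := by
  rcases type5 h hv₀ hn hx with ⟨u, hu, hc⟩ | ⟨u, hu, hc⟩
  · left
    exact (typeZ h hv₀ hn hx hu hc).1
  · right
    obtain ⟨c, rfl⟩ := isConj_iff.1 hu
    have hc' := cconj hc c⁻¹
    have e1 : c⁻¹ * (c * t₀.1 * c⁻¹) * c⁻¹⁻¹ = t₀.1 := by group
    rw [e1] at hc'
    have hxL : c⁻¹ * x * c⁻¹⁻¹ ∈ HH t₀.1 := mem_HH.2 hc'.symm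
    have ho : orderOf (c⁻¹ * x * c⁻¹⁻¹) = 5 := by
      rw [← order_conj (isConj_iff.2 ⟨c⁻¹, rfl⟩), hx]
    have := (T1_main h hv₀ hn hxL ho).1
    rwa [card_centralizer_conj] at this

theorem card_inv {e : G} (hee : e * e = 1) (he1 : e ≠ 1) : Nat.card (HH e) = 1920 ∨ Nat.card (HH e) = 240 := by
  rcases h.all e hee he1 with e1 | e1
  · left
    obtain ⟨c, rfl⟩ := isConj_iff.1 e1
    rw [card_centralizer_conj]
    exact h.b.card_C
  · right
    obtain ⟨c, rfl⟩ := isConj_iff.1 e1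
    rw [card_centralizer_conj]
    exact card_LG h hv₀ hn

theorem no_inv7 {d e : G} (hd : orderOf d = 7) (hee : e * e = 1) (he1 : e ≠ 1) (hc : Commute e d) : False := by
  have h1 := dvd_of_mem (HH e) (mem_HH.2 hc.symm.eq)
  rw [hd] at h1
  rcases card_inv h hv₀ hn hee he1 with e2 | e2 <;> rw [e2] at h1 <;> omega

theorem no_five7 {d x : G} (hd : orderOf d = 7) (hx : orderOf x = 5) (hc : Commute x d) : False := by
  have h1 := dvd_of_mem (HH x) (mem_HH.2 hc.symm.eq)
  rw [hd] at h1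
  rcases card_five h hv₀ hn hx with e2 | e2 <;> rw [e2] at h1 <;> omega

omit hv₀ hn in
theorem dvd_G (S : Subgroup G) : Nat.card S ∣ 604800 := by
  have := Subgroup.card_subgroup_dvd_card S
  rwa [h.card_G] at this

theorem card7 {d : G} (hd : orderOf d = 7) : Nat.card (HH d) = 7 ∨ Nat.card (HH d) = 21 ∨
    Nat.card (HH d) = 63 ∨ Nat.card (HH d) = 189 := by
  haveI hp2 : Fact (Nat.Prime 2) := ⟨Nat.prime_two⟩
  haveI hp5 : Fact (Nat.Prime 5) := ⟨by norm_num⟩
  have h7 : 7 ∣ Nat.card (HH d) := by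
    have := dvd_of_mem (HH d) (mem_HH.2 rfl)
    rwa [hd] at this
  have hdvd := dvd_G h (HH d)
  have h2 : ¬ 2 ∣ Nat.card (HH d) := by
    intro hd2
    obtain ⟨e, he, heo⟩ := cauchy_sub (HH d) 2 hd2
    have he1 : e ≠ 1 := by
      rintro rfl
      simp at heo
    exact no_inv7 h hv₀ hn hd (sq_of_order heo) he1 (mem_HH.1 he)
  have h5 : ¬ 5 ∣ Nat.card (HH d) := by
    intro hd5
    obtain ⟨x, hx, hxo⟩ := cauchy_sub (HH d) 5 hd5
    exact no_five7 h hv₀ hn hd hxo (mem_HH.1 hx)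
  have hc2 : Nat.Coprime (Nat.card (HH d)) (2 ^ 7) :=
    Nat.Coprime.pow_right 7 ((Nat.Prime.coprime_iff_not_dvd Nat.prime_two).2 h2).symm
  have hc5 : Nat.Coprime (Nat.card (HH d)) (5 ^ 2) :=
    Nat.Coprime.pow_right 2 ((Nat.Prime.coprime_iff_not_dvd (by norm_num : Nat.Prime 5)).2 h5).symm
  have h189 : Nat.card (HH d) ∣ 189 := by
    apply Nat.Coprime.dvd_of_dvd_mul_right (hc2.mul_right hc5)
    norm_num
    exact hdvd
  have hm : Nat.card (HH d) ∈ Nat.divisors 189 := Nat.mem_divisors.2 ⟨h189, by norm_num⟩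
  have e : Nat.divisors 189 = {1, 3, 7, 9, 21, 27, 63, 189} := by decide +kernel
  rw [e] at hm
  simp only [Finset.mem_insert, Finset.mem_singleton] at hm
  omega

/-- The possible shapes of the local subgroup at an element of order seven. -/
theorem cases7 {d : G} (hd : orderOf d = 7) :
    (Nat.card (HH d) = 7 ∧ Nat.card (OT d) = 6) ∨ (Nat.card (HH d) = 21 ∧ Nat.card (OT d) = 2) ∨
      (Nat.card (HH d) = 63 ∧ Nat.card (OT d) = 3) ∨ (Nat.card (HH d) = 189 ∧ Nat.card (OT d) = 1) := by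
  haveI hp7 : Fact (Nat.Prime 7) := ⟨by norm_num⟩
  have hG := h.card_G
  have hdm : d ∈ OT d := ⟨1, Subgroup.one_mem _, by simp⟩
  have ha1 : 1 ≤ Nat.card (OT d) := by
    haveI : Nonempty (OT d) := ⟨⟨d, hdm⟩⟩
    exact Nat.card_pos
  have ha6 : Nat.card (OT d) ≤ 6 := by
    have hsub : OT d ⊆ ((Subgroup.zpowers d : Subgroup G) : Set G) \ {1} := by
      rintro _ ⟨g, hg, rfl⟩
      refine ⟨norm_conj hg, ?_⟩
      intro e
      have e2 : d = 1 := by
        have e3 : d = g⁻¹ * (g * d * g⁻¹) * g := by group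
        rw [e3, e]
        group
      rw [e2] at hd
      simp at hd
    have h1 := Set.ncard_le_ncard hsub (Set.toFinite _)
    rw [Set.ncard_diff_singleton_of_mem (Subgroup.one_mem _), ← Nat.card_coe_set_eq, ← Nat.card_coe_set_eq] at h1
    have e7 : Nat.card ((Subgroup.zpowers d : Subgroup G) : Set G) = 7 := by
      show Nat.card (Subgroup.zpowers d) = 7
      rw [Nat.card_zpowers, hd]
    rw [e7] at h1
    omega
  have hcD : Nat.card (Subgroup.zpowers d) = 7 := by rw [Nat.card_zpowers, hd]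
  have hpg : IsPGroup 7 (Subgroup.zpowers d) := IsPGroup.of_card (n := 1) (by rw [hcD]; norm_num)
  have hidx : ¬ 7 ∣ (Subgroup.zpowers d).index := by
    have e := Subgroup.card_mul_index (Subgroup.zpowers d)
    rw [hcD, hG] at e
    omega
  let P : Sylow 7 G := hpg.toSylow hidx
  have hi1 : Nat.card (Sylow 7 G) % 7 = 1 := card_sylow_modEq_one 7 G
  have hi2 : Nat.card (Sylow 7 G) = (NN d).index := Sylow.card_eq_index_normalizer P
  rw [hi2] at hi1
  have hm := Subgroup.card_mul_index (NN d)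
  rw [← OT_card d, hG] at hm
  rcases card7 h hv₀ hn hd with e | e | e | e <;> rw [e] at hm ⊢ <;>
    generalize Nat.card (OT d) = a at * <;> generalize (NN d).index = i at * <;>
    interval_cases a <;> omega

theorem no25 {w : G} (h3 : w ^ 3 = 1) (h1 : w ≠ 1) : ¬ 25 ∣ Nat.card (HH w) := by
  haveI hp5 : Fact (Nat.Prime 5) := ⟨by norm_num⟩
  intro hd
  obtain ⟨R, hR⟩ := exists_syl_le (HH w) 5 2 (by simpa using hd) (by rw [h.card_G]; norm_num)
  have hwc : w ∈ Subgroup.centralizer ((R : Subgroup G) : Set G) := by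
    rw [Subgroup.mem_centralizer_iff]
    intro r hr
    exact mem_HH.1 (hR hr)
  rw [cent_syl h hv₀ hn R] at hwc
  have h25 := pow_card_eq_one' (x := (⟨w, hwc⟩ : (R : Subgroup G)))
  rw [show Nat.card (R : Subgroup G) = 25 from card_syl h R] at h25
  have h25' : w ^ 25 = 1 := congrArg Subtype.val h25
  have := pow_gcd_eq_one.2 ⟨h25', h3⟩
  have e0 : Nat.gcd 25 3 = 1 := by norm_num
  rw [e0, pow_one] at this
  exact h1 this

omit h hv₀ hn in
/-- A Sylow 3-subgroup in a subgroup of order 63 containing a given element of order three. -/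
theorem sub9 (S : Subgroup G) (hS : Nat.card S = 63) {w : G} (hw : w ∈ S) (h3 : w ^ 3 = 1) (h1 : w ≠ 1) :
    ∃ R : Subgroup G, R ≤ S ∧ w ∈ R ∧ Nat.card R = 9 ∧ ∀ x ∈ R, ∀ y ∈ R, Commute x y := by
  haveI hp3 : Fact (Nat.Prime 3) := ⟨by norm_num⟩
  let w₁ : S := ⟨w, hw⟩
  have ho : orderOf w₁ = 3 := orderOf_eq_prime (Subtype.ext h3) (fun e => h1 (congrArg Subtype.val e))
  obtain ⟨P, hP⟩ := exists_syl_mem 3 ho
  obtain ⟨k, hk⟩ := IsPGroup.iff_card.1 P.isPGroup'
  have hmul := Subgroup.card_mul_index (P : Subgroup S)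
  rw [hk, hS] at hmul
  have hidx : ¬ 3 ∣ (P : Subgroup S).index := P.not_dvd_index
  have hk3 : k < 3 := by
    by_contra hne
    have h1' : 3 ^ 3 ∣ 3 ^ k := pow_dvd_pow 3 (by omega)
    have h2 : 3 ^ k ∣ 63 := ⟨_, hmul.symm⟩
    have h3' := h1'.trans h2
    norm_num at h3'
  have hk2 : k = 2 := by
    interval_cases k
    · norm_num at hmul
      rw [hmul] at hidx
      norm_num at hidx
    · norm_num at hmul
      have : (P : Subgroup S).index = 21 := by omega
      rw [this] at hidx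
      norm_num at hidx
    · rfl
  subst hk2
  have hcP : Nat.card (P : Subgroup S) = 3 ^ 2 := hk
  have hcm := IsPGroup.isMulCommutative_of_card_eq_prime_sq hcP
  refine ⟨(P : Subgroup S).map S.subtype, ?_, ⟨w₁, hP, rfl⟩, ?_, ?_⟩
  · rintro _ ⟨x, -, rfl⟩
    exact x.2
  · rw [Subgroup.card_map_of_injective Subtype.val_injective, hcP]
    norm_num
  · rintro _ ⟨x, hx, rfl⟩ _ ⟨y, hy, rfl⟩
    have := hcm.is_comm.comm (⟨x, hx⟩ : (P : Subgroup S)) ⟨y, hy⟩
    exact congrArg (fun u : (P : Subgroup S) => (u.1.1 : G)) this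

/-- The order 504 is impossible. -/
theorem not_504 {w : G} (h3 : w ^ 3 = 1) (h1 : w ≠ 1) (hD : DD (zH w : HH w))
    (hcard : Nat.card (HH w) = 504) : False := by
  classical
  haveI hp7 : Fact (Nat.Prime 7) := ⟨by norm_num⟩
  haveI hp3 : Fact (Nat.Prime 3) := ⟨by norm_num⟩
  haveI hp2 : Fact (Nat.Prime 2) := ⟨Nat.prime_two⟩
  obtain ⟨d₀, hd₀⟩ := exists_prime_orderOf_dvd_card' (G := HH w) 7 (by rw [hcard]; norm_num)
  obtain ⟨a₀, ha₀⟩ := exists_prime_orderOf_dvd_card' (G := HH w) 2 (by rw [hcard]; norm_num)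
  have haa : a₀ * a₀ = 1 := sq_of_order ha₀
  have ha1 : a₀ ≠ 1 := by
    rintro rfl
    simp at ha₀
  let c : HH w := zH w
  have hc3 : c ^ 3 = 1 := hD.c3
  have hcD : Nat.card (Subgroup.zpowers d₀) = 7 := by rw [Nat.card_zpowers, hd₀]
  have hpg : IsPGroup 7 (Subgroup.zpowers d₀) := IsPGroup.of_card (n := 1) (by rw [hcD]; norm_num)
  have hidx0 : (Subgroup.zpowers d₀).index = 72 := by
    have := Subgroup.card_mul_index (Subgroup.zpowers d₀)
    rw [hcD, hcard] at this
    omega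
  have hidx : ¬ 7 ∣ (Subgroup.zpowers d₀).index := by
    rw [hidx0]
    norm_num
  let P₀ : Sylow 7 (HH w) := hpg.toSylow hidx
  have hP₀7 : Nat.card (P₀ : Subgroup (HH w)) = 7 := hcD
  by_cases hN : Subgroup.normalizer (P₀ : Set (HH w)) ≤ Subgroup.centralizer (P₀ : Set (HH w))
  · -- the normal complement
    have hcomp := MonoidHom.ker_transferSylow_isComplement' P₀ hN
    set φ := MonoidHom.transferSylow P₀ hN with hφ
    have hKc := hcomp.card_mul
    rw [hP₀7, hcard] at hKc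
    have hpow7 : ∀ g : HH w, (φ g) ^ 7 = 1 := by
      intro g
      have := pow_card_eq_one' (x := φ g)
      rwa [hP₀7] at this
    have hcK : c ∈ φ.ker := by
      rw [MonoidHom.mem_ker]
      have e3 : (φ c) ^ 3 = 1 := by rw [← map_pow, hc3, map_one]
      have := pow_gcd_eq_one.2 ⟨hpow7 c, e3⟩
      have e0 : Nat.gcd 7 3 = 1 := by norm_num
      rwa [e0, pow_one] at this
    have hK8 : ∀ g : HH w, g ^ 8 = 1 → g ∈ φ.ker := by
      intro g hg
      rw [MonoidHom.mem_ker]
      have e3 : (φ g) ^ 8 = 1 := by rw [← map_pow, hg, map_one]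
      have := pow_gcd_eq_one.2 ⟨hpow7 g, e3⟩
      have e0 : Nat.gcd 7 8 = 1 := by norm_num
      rwa [e0, pow_one] at this
    have := hD.no_proper haa ha1 φ.ker hcK hK8
    rw [hcard] at this
    omega
  · -- a nontrivial action
    obtain ⟨r, hr, hrn⟩ := SetLike.not_le_iff_exists.1 hN
    have hr' : r ∈ Subgroup.normalizer ((Subgroup.zpowers d₀ : Subgroup (HH w)) : Set (HH w)) := hr
    have hrd : ¬ Commute r d₀ := by
      intro hc
      apply hrn
      rw [Subgroup.mem_centralizer_iff]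
      intro p hp
      obtain ⟨k, rfl⟩ := Subgroup.mem_zpowers_iff.1 (show p ∈ Subgroup.zpowers d₀ from hp)
      exact (hc.zpow_right k).eq.symm
    set N₁ := Subgroup.normalizer ((Subgroup.zpowers d₀ : Subgroup (HH w)) : Set (HH w)) with hN₁
    have hi1 : Nat.card (Sylow 7 (HH w)) % 7 = 1 := card_sylow_modEq_one 7 (HH w)
    have hi2 : Nat.card (Sylow 7 (HH w)) = N₁.index := Sylow.card_eq_index_normalizer P₀
    rw [hi2] at hi1
    have hmul := Subgroup.card_mul_index N₁
    rw [hcard] at hmul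
    have h7N : 7 ∣ Nat.card N₁ := by
      have := dvd_of_mem N₁ (show d₀ ∈ N₁ from HH_le_NN d₀ (mem_HH.2 rfl))
      rwa [hd₀] at this
    have h3N : 3 ∣ Nat.card N₁ := by
      have hcN : c ∈ N₁ := by
        apply mem_norm_of
        rw [conj_eq_of_comm (hD.cc d₀).symm]
        exact Subgroup.mem_zpowers d₀
      have := dvd_of_mem N₁ hcN
      rwa [orderOf_eq_prime hc3 hD.c1] at this
    have h21 : 21 ∣ Nat.card N₁ := by
      have := Nat.Coprime.mul_dvd_of_dvd_of_dvd (by norm_num : Nat.Coprime 3 7) h3N h7N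
      simpa using this
    obtain ⟨m, hm⟩ := h21
    rw [hm] at hmul
    have hi24 : m * N₁.index = 24 := by nlinarith
    have hile : N₁.index ≤ 24 := Nat.le_of_dvd (by norm_num) ⟨m, by rw [← hi24, mul_comm]⟩
    have hcases : N₁.index = 1 ∨ N₁.index = 8 := by
      generalize N₁.index = i at *
      interval_cases i <;> omega
    have hd₁ : orderOf d₀.1 = 7 := (Subgroup.orderOf_coe d₀).trans hd₀
    rcases hcases with hi | hi
    · -- the normal case
      have hNt : N₁ = ⊤ := Subgroup.index_eq_one.1 hi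
      obtain ⟨e₁, e₂, he₁, he₂, hee⟩ := hD.exists_pair haa ha1
      have hm₁ : e₁ ∈ N₁ := by rw [hNt]; trivial
      have hm₂ : e₂ ∈ N₁ := by rw [hNt]; trivial
      have hcomm := comm_invol hm₁ hm₂ he₁ he₂
      rw [hee] at hcomm
      exact no_inv7 h hv₀ hn hd₁ (congrArg Subtype.val haa) (fun e => ha1 (Subtype.ext e))
        (congrArg Subtype.val hcomm)
    · -- the case of order 63
      have hN63 : Nat.card N₁ = 63 := by
        have : m = 3 := by
          rw [hi] at hi24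
          omega
        omega
      have hr63 : r ^ 63 = 1 := by
        have := pow_card_eq_one' (x := (⟨r, hr'⟩ : N₁))
        rw [hN63] at this
        exact congrArg Subtype.val this
      have hr63' : r.1 ^ 63 = 1 := congrArg Subtype.val hr63
      have hrG : r.1 ∈ NN d₀.1 := by
        apply mem_norm_of
        have hm := norm_conj hr'
        obtain ⟨k, hk⟩ := Subgroup.mem_zpowers_iff.1 hm
        refine Subgroup.mem_zpowers_iff.2 ⟨k, ?_⟩
        have := congrArg Subtype.val hk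
        simpa using this
      have hrdG : ¬ Commute r.1 d₀.1 := fun e => hrd (Subtype.ext e)
      have hge3 : 3 ≤ (OT d₀.1).ncard := by
        apply ot_ge3 (OT d₀.1) ⟨1, Subgroup.one_mem _, by simp⟩ ?_ hr63' hrdG
        rintro _ ⟨g, hg, rfl⟩
        exact ⟨r.1 * g, Subgroup.mul_mem _ hrG hg, by group⟩
      rw [← Nat.card_coe_set_eq] at hge3
      have hwd : w ∈ HH d₀.1 := mem_HH.2 (mem_HH.1 d₀.2).symm
      have h3d : 3 ∣ Nat.card (HH d₀.1) := by
        have := dvd_of_mem (HH d₀.1) hwd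
        rwa [orderOf_eq_prime h3 h1] at this
      have hc63 : Nat.card (HH d₀.1) = 63 := by
        rcases cases7 h hv₀ hn hd₁ with ⟨e1, e2⟩ | ⟨e1, e2⟩ | ⟨e1, e2⟩ | ⟨e1, e2⟩
        · rw [e1] at h3d
          omega
        · omega
        · exact e1
        · omega
      obtain ⟨R, hRle, hwR, hR9, hRab⟩ := sub9 (HH d₀.1) hc63 hwd h3 h1
      have hRw : R ≤ HH w := fun x hx => mem_HH.2 (hRab x hx w hwR)
      -- the centralizer in the group
      set C₁ := Subgroup.centralizer ({d₀} : Set (HH w)) with hC₁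
      have hC₁N : C₁ ≤ N₁ := HH_le_NN d₀
      have h7C : 7 ∣ Nat.card C₁ := by
        have := dvd_of_mem C₁ (show d₀ ∈ C₁ from mem_HH.2 rfl)
        rwa [hd₀] at this
      have h9C : 9 ∣ Nat.card C₁ := by
        have hle : R.subgroupOf (HH w) ≤ C₁ := by
          intro x hx
          apply mem_HH.2
          apply Subtype.ext
          exact mem_HH.1 (hRle (Subgroup.mem_subgroupOf.1 hx))
        have := Subgroup.card_dvd_of_le hle
        have e : Nat.card (R.subgroupOf (HH w)) = 9 := by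
          rw [← hR9]
          exact Nat.card_congr (Subgroup.subgroupOfEquivOfLe hRw).toEquiv
        rwa [e] at this
      have h63C : 63 ∣ Nat.card C₁ := by
        have := Nat.Coprime.mul_dvd_of_dvd_of_dvd (by norm_num : Nat.Coprime 9 7) h9C h7C
        simpa using this
      have hdC := Subgroup.card_dvd_of_le hC₁N
      rw [hN63] at hdC
      have heq : C₁ = N₁ := Subgroup.eq_of_le_of_card_ge hC₁N (by
        rw [hN63]
        exact Nat.le_of_dvd Nat.card_pos h63C)
      have hrC : r ∈ C₁ := by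
        rw [heq]
        exact hr'
      exact hrd (mem_HH.1 hrC)

/-- The centralizer of an element of order three commuting with an involution of the first type. -/
theorem Z_card {w e : G} (he : IsConj z e) (hew : Commute e w) (h3 : w ^ 3 = 1) (h1 : w ≠ 1) :
    Nat.card (HH w) = 1080 := by
  have hall : ∀ v : G, v * v = 1 → v ≠ 1 → Commute v w → IsConj z v := fun v hvv hv1 hvw =>
    Z_all h hv₀ hn he hew h3 h1 hvv hv1 hvw
  have hD : DD (zH w : HH w) := DD_of h h3 h1 hall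
  let a : HH w := ⟨e, mem_HH.2 hew⟩
  have haa : a * a = 1 := Subtype.ext (zconj_inv he h.zz)
  have ha1 : a ≠ 1 := fun e' => zconj_ne he h.z1 (congrArg Subtype.val e')
  have hcard := hD.card_eq haa ha1
  have hmod := hD.mod8 haa ha1
  have h13 := hD.ge13 haa ha1
  have hdvd := dvd_G h (HH w)
  rw [hcard] at hdvd ⊢
  set n := Nat.card (Cfsg.Agent.Lib.HJSevenA.Inv (HH w)) with hn'
  have hn1 : n ∣ 25200 := by
    obtain ⟨k, hk⟩ := hdvd
    refine ⟨k, ?_⟩
    have : 24 * (n * k) = 604800 := by rw [← mul_assoc]; exact hk.symm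
    omega
  have hodd : Nat.Coprime n 16 := by
    have : Nat.Coprime n 2 := by
      exact Nat.coprime_two_right.2 (Nat.odd_iff.2 (by omega))
    exact Nat.Coprime.pow_right 4 this
  have hn2 : n ∣ 1575 := by
    apply Nat.Coprime.dvd_of_dvd_mul_right hodd
    norm_num
    exact hn1
  have hm : n ∈ Nat.divisors 1575 := Nat.mem_divisors.2 ⟨hn2, by norm_num⟩
  have e0 : Nat.divisors 1575 = {1, 3, 5, 7, 9, 15, 21, 25, 35, 45, 63, 75, 105, 175, 225, 315, 525, 1575} := by
    decide +kernel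
  rw [e0] at hm
  simp only [Finset.mem_insert, Finset.mem_singleton] at hm
  have hne21 : n ≠ 21 := by
    intro e21
    apply not_504 h hv₀ hn h3 h1 hD
    rw [hcard, e21]
  have hne525 : n ≠ 525 := by
    intro e525
    apply no25 h hv₀ hn h3 h1
    rw [hcard, e525]
    norm_num
  omega

end Main

end Cfsg.Agent.Lib.HJSevenC
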