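import Mathlib
import Cfsg.Agent.Lib.HJSevenC

set_option autoImplicit false
set_option linter.all false

namespace Cfsg.Agent.Lib.HJSevenD

open Cfsg.Agent.Lib.HJBase Cfsg.Agent.Lib.CITFour Cfsg.Agent.Lib.CITFive Cfsg.Agent.Lib.HJType
open Cfsg.Agent.Lib.HJTypeB Cfsg.Agent.Lib.HJFive Cfsg.Agent.Lib.HJFiveB Cfsg.Agent.Lib.HJSevenA
open Cfsg.Agent.Lib.HJSevenB Cfsg.Agent.Lib.HJSevenC
open Cfsg.Agent.Lib.HJType.TC Cfsg.Agent.Lib.HJTypeB.TC
open Cfsg.Agent.S3313 (commute_of_inv order_conj order_two sq_of_order)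

variable {G : Type*} [Group G] [Finite G] {z : G} {Q : Subgroup (HH z)} {t₀ : HH z}

theorem zp_eq3 {a b : G} (ha : orderOf a = 3) (hb : orderOf b = 3) (hm : a ∈ Subgroup.zpowers b) :
    Subgroup.zpowers a = Subgroup.zpowers b := by
  apply Subgroup.eq_of_le_of_card_ge (Subgroup.zpowers_le.2 hm)
  rw [Nat.card_zpowers, Nat.card_zpowers, ha, hb]

/-- Conjugacy of subgroups of order three inside a subgroup with a cyclic Sylow 3-subgroup. -/
theorem syl_conj3 (S : Subgroup G) (hS : ¬ 9 ∣ Nat.card S) {a b : G} (ha : a ∈ S) (hb : b ∈ S)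
    (hoa : orderOf a = 3) (hob : orderOf b = 3) : ∃ s ∈ S, s * a * s⁻¹ ∈ Subgroup.zpowers b := by
  haveI hp5 : Fact (Nat.Prime 3) := ⟨by norm_num⟩
  let a' : S := ⟨a, ha⟩
  let b' : S := ⟨b, hb⟩
  have hoa' : orderOf a' = 3 := (Subgroup.orderOf_mk a ha).trans hoa
  have hob' : orderOf b' = 3 := (Subgroup.orderOf_mk b hb).trans hob
  have hsyl : ∀ s : S, orderOf s = 3 → ∃ P : Sylow 3 S, (P : Subgroup S) = Subgroup.zpowers s := by
    intro s hs
    have hc : Nat.card (Subgroup.zpowers s) = 3 ^ 1 := by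
      rw [Nat.card_zpowers, hs]; rfl
    have hpg : IsPGroup 3 (Subgroup.zpowers s) := IsPGroup.of_card hc
    have hidx : ¬ 3 ∣ (Subgroup.zpowers s).index := by
      intro hd
      apply hS
      have e := Subgroup.card_mul_index (Subgroup.zpowers s)
      rw [hc] at e
      rw [← e]
      exact mul_dvd_mul_left (3 ^ 1) hd
    exact ⟨hpg.toSylow hidx, rfl⟩
  obtain ⟨P₀, hP₀⟩ := hsyl b' hob'
  obtain ⟨P₁, hP₁⟩ := hsyl a' hoa'
  obtain ⟨g, hg⟩ := MulAction.exists_smul_eq S P₁ P₀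
  have hmem : b' ∈ (P₀ : Subgroup S) := by
    rw [hP₀]
    exact Subgroup.mem_zpowers b'
  rw [← hg, Sylow.coe_subgroup_smul] at hmem
  obtain ⟨s, hs, hse⟩ := Subgroup.mem_smul_pointwise_iff_exists _ _ _ |>.1 hmem
  rw [hP₁] at hs
  obtain ⟨k, rfl⟩ := Subgroup.mem_zpowers_iff.1 hs
  have hτe : g.1 * a ^ k * g.1⁻¹ = b := by
    have := congrArg Subtype.val hse
    simpa [a', b', MulAut.smul_def] using this
  refine ⟨g.1, g.2, ?_⟩
  have hoc : orderOf (g.1 * a * g.1⁻¹) = 3 := by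
    rw [← order_conj (isConj_iff.2 ⟨g.1, rfl⟩), hoa]
  have hm : b ∈ Subgroup.zpowers (g.1 * a * g.1⁻¹) := by
    rw [← hτe, ← conj_zpow]
    exact Subgroup.zpow_mem_zpowers _ k
  rw [zp_eq3 hob hoc hm]
  exact Subgroup.mem_zpowers _

section Main

variable (h : TC z t₀ Q) {v₀ : LL t₀} (hv₀ : v₀ ∈ setA z t₀) (hn : ¬ Commute (bL t₀) v₀)

include h hv₀ hn

/-- An element of order three commuting with an element of order five commutes with a conjugate of the
central involution. -/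
theorem five_three {x w : G} (hx : orderOf x = 5) (h3 : w ^ 3 = 1) (h1 : w ≠ 1) (hc : Commute w x) :
    ∃ e, IsConj z e ∧ Commute e w := by
  haveI hp3 : Fact (Nat.Prime 3) := ⟨by norm_num⟩
  have ho3 : orderOf w = 3 := orderOf_eq_prime h3 h1
  rcases type5 h hv₀ hn hx with ⟨u, hu, hcu⟩ | ⟨u, hu, hcu⟩
  · exfalso
    have e50 := (typeZ h hv₀ hn hx hu hcu).1
    have := dvd_of_mem (HH x) (mem_HH.2 hc.eq)
    rw [ho3, e50] at this
    omega
  · obtain ⟨c, rfl⟩ := isConj_iff.1 hu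
    have e1 : c⁻¹ * (c * t₀.1 * c⁻¹) * c⁻¹⁻¹ = t₀.1 := by group
    have hc' := cconj hcu c⁻¹
    rw [e1] at hc'
    have hxL : c⁻¹ * x * c⁻¹⁻¹ ∈ HH t₀.1 := mem_HH.2 hc'.symm
    have ho : orderOf (c⁻¹ * x * c⁻¹⁻¹) = 5 := by
      rw [← order_conj (isConj_iff.2 ⟨c⁻¹, rfl⟩), hx]
    have h300 := (T1_main h hv₀ hn hxL ho).1
    have hx5 : (c⁻¹ * x * c⁻¹⁻¹) ^ 5 = 1 := by
      rw [← ho]
      exact pow_orderOf_eq_one _
    have hxM := x_mem_M h hv₀ hn hxL hx5
    obtain ⟨σ, hσ, hσz, hσ3, hσ1, -⟩ := exists_sigma h hv₀ hn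
    have hσx : Commute σ (c⁻¹ * x * c⁻¹⁻¹) :=
      sigma_M h hv₀ hn hσ hσz hσ3 ⟨⟨_, hxL⟩, hxM, rfl⟩
    have hoσ : orderOf σ = 3 := orderOf_eq_prime hσ3 hσ1
    have hw' : c⁻¹ * w * c⁻¹⁻¹ ∈ HH (c⁻¹ * x * c⁻¹⁻¹) := mem_HH.2 (cconj hc c⁻¹)
    have how' : orderOf (c⁻¹ * w * c⁻¹⁻¹) = 3 := by
      rw [← order_conj (isConj_iff.2 ⟨c⁻¹, rfl⟩), ho3]
    obtain ⟨s, -, hs⟩ := syl_conj3 (HH (c⁻¹ * x * c⁻¹⁻¹)) (by rw [h300]; norm_num) hw' (mem_HH.2 hσx) how' hoσ
    obtain ⟨k, hk⟩ := Subgroup.mem_zpowers_iff.1 hs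
    have hz₂ : Commute z (s * (c⁻¹ * w * c⁻¹⁻¹) * s⁻¹) := by
      rw [← hk]
      exact (hσz.zpow_left k).symm
    refine ⟨(c * s⁻¹) * z * (c * s⁻¹)⁻¹, isConj_iff.2 ⟨_, rfl⟩, ?_⟩
    have := cconj hz₂ (c * s⁻¹)
    have e3 : (c * s⁻¹) * (s * (c⁻¹ * w * c⁻¹⁻¹) * s⁻¹) * (c * s⁻¹)⁻¹ = w := by group
    rwa [e3] at this

theorem card_syl3 (P : Sylow 3 G) : Nat.card (P : Subgroup G) = 27 := by
  haveI : Fact (Nat.Prime 3) := ⟨by norm_num⟩
  obtain ⟨k, hk⟩ := IsPGroup.iff_card.1 P.isPGroup'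
  have hG := h.card_G
  have hmul := Subgroup.card_mul_index (P : Subgroup G)
  rw [hk, hG] at hmul
  have hidx : ¬ 3 ∣ (P : Subgroup G).index := P.not_dvd_index
  have hk3 : k < 4 := by
    by_contra hne
    have h1 : 3 ^ 4 ∣ 3 ^ k := pow_dvd_pow 3 (by omega)
    have h2 : 3 ^ k ∣ 604800 := ⟨_, hmul.symm⟩
    have h3 := h1.trans h2
    norm_num at h3
  have hk2 : k = 3 := by
    interval_cases k
    · norm_num at hmul
      rw [hmul] at hidx
      norm_num at hidx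
    · exfalso
      apply hidx
      omega
    · exfalso
      apply hidx
      omega
    · rfl
  rw [hk, hk2]
  norm_num

omit hv₀ hn in
theorem exists_z3 : ∃ x : G, Commute x z ∧ orderOf x = 3 := by
  haveI : Fact (Nat.Prime 3) := ⟨by norm_num⟩
  obtain ⟨x, hx, hxo⟩ := cauchy_sub (HH z) 3 (by
    rw [show Nat.card (HH z) = 1920 from h.b.card_C]
    norm_num)
  exact ⟨x, mem_HH.1 hx, hxo⟩

theorem exists_t3 : ∃ x ∈ HH t₀.1, orderOf x = 3 := by
  haveI : Fact (Nat.Prime 3) := ⟨by norm_num⟩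
  exact cauchy_sub (HH t₀.1) 3 (by
    rw [card_LG h hv₀ hn]
    norm_num)

theorem syl_central (P : Sylow 3 G) : ∃ w₀ ∈ (P : Subgroup G), orderOf w₀ = 3 ∧
    (∀ p ∈ (P : Subgroup G), Commute p w₀) ∧ ∃ e, IsConj z e ∧ Commute e w₀ := by
  haveI hp3 : Fact (Nat.Prime 3) := ⟨by norm_num⟩
  obtain ⟨x, hxz, hxo⟩ := exists_z3 h
  have hx3 : x ^ 3 = 1 := by
    rw [← hxo]
    exact pow_orderOf_eq_one x
  have hx1 : x ≠ 1 := by
    rintro rfl
    simp at hxo
  have h1080 := Z_card h hv₀ hn (IsConj.refl z) hxz.symm hx3 hx1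
  obtain ⟨R, hR⟩ := exists_syl_le (HH x) 3 3 (by rw [h1080]; norm_num) (by rw [h.card_G]; norm_num)
  have hxR : x ∈ (R : Subgroup G) := mem_syl_of_comm 3 R (n := 1) (by simpa using hx3)
    (fun r hr => mem_HH.1 (hR hr))
  obtain ⟨c, hc1, hc2⟩ := syl_conj_ex 3 R P
  refine ⟨c * x * c⁻¹, hc1 x hxR, ?_, ?_, c * z * c⁻¹, isConj_iff.2 ⟨c, rfl⟩, cconj hxz.symm c⟩
  · rw [← order_conj (isConj_iff.2 ⟨c, rfl⟩), hxo]
  · intro p hp
    have h1 : Commute (c⁻¹ * p * c) x := mem_HH.1 (hR (hc2 p hp))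
    have := cconj h1 c
    have e : c * (c⁻¹ * p * c) * c⁻¹ = p := by group
    rwa [e] at this

theorem syl_nonab (P : Sylow 3 G) : ¬ ∀ x ∈ (P : Subgroup G), ∀ y ∈ (P : Subgroup G), Commute x y := by
  haveI hp3 : Fact (Nat.Prime 3) := ⟨by norm_num⟩
  intro hab
  obtain ⟨x, hxL, hxo⟩ := exists_t3 h hv₀ hn
  have hx3 : x ^ 3 = 1 := by
    rw [← hxo]
    exact pow_orderOf_eq_one x
  have hx1 : x ≠ 1 := by
    rintro rfl
    simp at hxo
  obtain ⟨P₁, hP₁⟩ := exists_syl_mem 3 hxo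
  obtain ⟨c, hc1, hc2⟩ := syl_conj_ex 3 P₁ P
  have hab₁ : ∀ y ∈ (P₁ : Subgroup G), Commute y x := by
    intro y hy
    have := cconj (hab _ (hc1 y hy) _ (hc1 x hP₁)) c⁻¹
    have e : ∀ u : G, c⁻¹ * (c * u * c⁻¹) * c⁻¹⁻¹ = u := fun u => by group
    rwa [e, e] at this
  have hle : (P₁ : Subgroup G) ≤ HH x := fun y hy => mem_HH.2 (hab₁ y hy)
  have h27 := Subgroup.card_dvd_of_le hle
  rw [card_syl3 h hv₀ hn P₁] at h27
  have hto : orderOf t₀.1 = 2 := h.ot
  have h2 : 2 ∣ Nat.card (HH x) := by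
    have := dvd_of_mem (HH x) (mem_HH.2 (mem_HH.1 hxL).symm : t₀.1 ∈ HH x)
    rwa [hto] at this
  have hpos : 0 < Nat.card (HH x) := Nat.card_pos
  rcases T_card₀ h hv₀ hn hxL hx3 hx1 with e | e <;> omega

theorem cen_unique (P : Sylow 3 G) {a b : G} (ha : a ∈ (P : Subgroup G)) (hb : b ∈ (P : Subgroup G))
    (hao : orderOf a = 3) (hac : ∀ x ∈ (P : Subgroup G), Commute x a)
    (hbc : ∀ x ∈ (P : Subgroup G), Commute x b) : b ∈ Subgroup.zpowers a := by
  have hle3 := center_le3 (P : Subgroup G) (card_syl3 h hv₀ hn P) (syl_nonab h hv₀ hn P)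
  have hmem : ∀ u ∈ (P : Subgroup G), (∀ x ∈ (P : Subgroup G), Commute x u) →
      u ∈ (P : Subgroup G) ⊓ Subgroup.centralizer (((P : Subgroup G) : Set G)) := by
    intro u hu huc
    refine ⟨hu, ?_⟩
    show u ∈ Subgroup.centralizer (((P : Subgroup G) : Set G))
    rw [Subgroup.mem_centralizer_iff]
    intro x hx
    exact huc x hx
  have hzle : Subgroup.zpowers a ≤ (P : Subgroup G) ⊓ Subgroup.centralizer (((P : Subgroup G) : Set G)) :=
    Subgroup.zpowers_le.2 (hmem a ha hac)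
  have heq := Subgroup.eq_of_le_of_card_ge hzle (by rw [Nat.card_zpowers, hao]; exact hle3)
  rw [heq]
  exact hmem b hb hbc

theorem no_z7 {x e d : G} (he : IsConj z e) (hex : Commute e x) (h3 : x ^ 3 = 1) (h1 : x ≠ 1)
    (hd : orderOf d = 7) (hc : Commute x d) : False := by
  have := dvd_of_mem (HH x) (mem_HH.2 hc.symm.eq)
  rw [hd, Z_card h hv₀ hn he hex h3 h1] at this
  omega

theorem no_189 {d : G} (hd : orderOf d = 7) (h189 : Nat.card (HH d) = 189) : False := by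
  haveI hp3 : Fact (Nat.Prime 3) := ⟨by norm_num⟩
  obtain ⟨R, hR⟩ := exists_syl_le (HH d) 3 3 (by rw [h189]; norm_num) (by rw [h.card_G]; norm_num)
  obtain ⟨w₀, hw₀, hw₀o, -, e, he, hew⟩ := syl_central h hv₀ hn R
  have h3 : w₀ ^ 3 = 1 := by
    rw [← hw₀o]
    exact pow_orderOf_eq_one _
  have h1 : w₀ ≠ 1 := by
    rintro rfl
    simp at hw₀o
  exact no_z7 h hv₀ hn he hew h3 h1 hd (mem_HH.1 (hR hw₀))

theorem no_63_3 {d : G} (hd : orderOf d = 7) (h63 : Nat.card (HH d) = 63) (h3 : Nat.card (OT d) = 3) : False := by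
  haveI hp3 : Fact (Nat.Prime 3) := ⟨by norm_num⟩
  have hN : Nat.card (NN d) = 189 := by
    rw [← OT_card d, h63, h3]
  obtain ⟨R, hR⟩ := exists_syl_le (NN d) 3 3 (by rw [hN]; norm_num) (by rw [h.card_G]; norm_num)
  obtain ⟨w₀, hw₀, hw₀o, hw₀c, e, he, hew⟩ := syl_central h hv₀ hn R
  have hw3 : w₀ ^ 3 = 1 := by
    rw [← hw₀o]
    exact pow_orderOf_eq_one _
  have hw1 : w₀ ≠ 1 := by
    rintro rfl
    simp at hw₀o
  have hnc : ¬ Commute w₀ d := fun hc => no_z7 h hv₀ hn he hew hw3 hw1 hd hc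
  have hR27 : Nat.card (R : Subgroup G) = 27 := card_syl3 h hv₀ hn R
  -- the part commuting with `d`
  set T' : Set G := {y | ∃ g ∈ (R : Subgroup G), g * d * g⁻¹ = y} with hT'
  have horb := orbit_card (R : Subgroup G) d T' (fun g hg => ⟨g, hg, rfl⟩) (fun y hy => hy)
  have hT'le : Nat.card T' ≤ 3 := by
    rw [← h3, Nat.card_coe_set_eq, Nat.card_coe_set_eq]
    apply Set.ncard_le_ncard _ (Set.toFinite _)
    rintro _ ⟨g, hg, rfl⟩
    exact ⟨g, hR hg, rfl⟩
  set A : Subgroup G := (R : Subgroup G) ⊓ Subgroup.centralizer ({d} : Set G) with hA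
  rw [hR27] at horb
  have hAd : Nat.card A ∣ 27 := by
    have := Subgroup.card_dvd_of_le (inf_le_left : A ≤ (R : Subgroup G))
    rwa [hR27] at this
  have hA27 : Nat.card A ≠ 27 := by
    intro e27
    have heq : A = (R : Subgroup G) := Subgroup.eq_of_le_of_card_ge (inf_le_left : A ≤ (R : Subgroup G)) (by rw [hR27, e27])
    have : w₀ ∈ A := by
      rw [heq]
      exact hw₀
    exact hnc (mem_HH.1 this.2)
  have hA9 : Nat.card A = 9 := by
    have hT'pos : 0 < Nat.card T' := by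
      haveI : Nonempty T' := ⟨⟨d, 1, Subgroup.one_mem _, by simp⟩⟩
      exact Nat.card_pos
    obtain ⟨k, hk, hk2⟩ := (Nat.dvd_prime_pow (by norm_num : Nat.Prime 3)).1 (show Nat.card A ∣ 3 ^ 3 by simpa using hAd)
    rw [hk2] at horb hA27 ⊢
    generalize Nat.card T' = t at *
    interval_cases k
    · exfalso
      norm_num at horb
      omega
    · exfalso
      norm_num at horb
      omega
    · norm_num
    · exfalso
      exact hA27 (by norm_num)
  have hAab := IsPGroup.isMulCommutative_of_card_eq_prime_sq (p := 3) (G := A) (by rw [hA9]; norm_num)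
  have hcentral : ∀ a ∈ A, ∀ x ∈ (R : Subgroup G), Commute x a := by
    intro a ha x hx
    set C : Subgroup G := (R : Subgroup G) ⊓ Subgroup.centralizer ({a} : Set G) with hC
    have hAC : A ≤ C := by
      intro b hb
      refine ⟨hb.1, mem_HH.2 ?_⟩
      have := hAab.is_comm.comm (⟨b, hb⟩ : A) ⟨a, ha⟩
      exact congrArg Subtype.val this
    have hwC : w₀ ∈ C := ⟨hw₀, mem_HH.2 (hw₀c a ha.1).symm⟩
    have hCd : Nat.card C ∣ 27 := by
      have := Subgroup.card_dvd_of_le (inf_le_left : C ≤ (R : Subgroup G))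
      rwa [hR27] at this
    have hgt : 9 < Nat.card C := by
      by_contra hle
      push Not at hle
      have heq := Subgroup.eq_of_le_of_card_ge hAC (by rw [hA9]; exact hle)
      rw [← heq] at hwC
      exact hnc (mem_HH.1 hwC.2)
    have hC27 : Nat.card C = 27 := by
      obtain ⟨k, hk, hk2⟩ := (Nat.dvd_prime_pow (by norm_num : Nat.Prime 3)).1 (show Nat.card C ∣ 3 ^ 3 by simpa using hCd)
      rw [hk2] at hgt ⊢
      interval_cases k <;> first | rfl | (exfalso; norm_num at hgt; done)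
    have heq : C = (R : Subgroup G) := Subgroup.eq_of_le_of_card_ge (inf_le_left : C ≤ (R : Subgroup G)) (by rw [hR27, hC27])
    have hxC : x ∈ C := by
      rw [heq]
      exact hx
    exact mem_HH.1 hxC.2
  have hle3 := center_le3 (R : Subgroup G) hR27 (syl_nonab h hv₀ hn R)
  have hAB : A ≤ (R : Subgroup G) ⊓ Subgroup.centralizer (((R : Subgroup G) : Set G)) := by
    intro a ha
    refine ⟨ha.1, ?_⟩
    show a ∈ Subgroup.centralizer (((R : Subgroup G) : Set G))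
    rw [Subgroup.mem_centralizer_iff]
    intro x hx
    exact hcentral a ha x hx
  have := Nat.le_of_dvd Nat.card_pos (Subgroup.card_dvd_of_le hAB)
  omega

omit h hv₀ hn in
/-- A subgroup of order 63 normalizes its subgroup of order seven. -/
theorem normal63 (S : Subgroup G) (hS : Nat.card S = 63) {d : G} (hdS : d ∈ S) (hd : orderOf d = 7) :
    S ≤ NN d := by
  haveI hp7 : Fact (Nat.Prime 7) := ⟨by norm_num⟩
  let d₀ : S := ⟨d, hdS⟩
  have hd₀ : orderOf d₀ = 7 := (Subgroup.orderOf_mk d hdS).trans hd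
  have hcD : Nat.card (Subgroup.zpowers d₀) = 7 := by rw [Nat.card_zpowers, hd₀]
  have hpg : IsPGroup 7 (Subgroup.zpowers d₀) := IsPGroup.of_card (n := 1) (by rw [hcD]; norm_num)
  have hidx : ¬ 7 ∣ (Subgroup.zpowers d₀).index := by
    have e := Subgroup.card_mul_index (Subgroup.zpowers d₀)
    rw [hcD, hS] at e
    omega
  let P₀ : Sylow 7 S := hpg.toSylow hidx
  set N₁ := Subgroup.normalizer ((Subgroup.zpowers d₀ : Subgroup S) : Set S) with hN₁
  have hi1 : Nat.card (Sylow 7 S) % 7 = 1 := card_sylow_modEq_one 7 S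
  have hi2 : Nat.card (Sylow 7 S) = N₁.index := Sylow.card_eq_index_normalizer P₀
  rw [hi2] at hi1
  have hmul := Subgroup.card_mul_index N₁
  rw [hS] at hmul
  have h7N : 7 ∣ Nat.card N₁ := by
    have := dvd_of_mem N₁ (show d₀ ∈ N₁ from HH_le_NN d₀ (mem_HH.2 rfl))
    rwa [hd₀] at this
  obtain ⟨m, hm⟩ := h7N
  rw [hm] at hmul
  have hi9 : m * N₁.index = 9 := by nlinarith
  have hile : N₁.index ≤ 9 := Nat.le_of_dvd (by norm_num) ⟨m, by rw [← hi9, mul_comm]⟩
  have hi : N₁.index = 1 := by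
    generalize N₁.index = i at *
    interval_cases i <;> omega
  have hNt : N₁ = ⊤ := Subgroup.index_eq_one.1 hi
  intro s hs
  have hsN : (⟨s, hs⟩ : S) ∈ N₁ := by
    rw [hNt]
    trivial
  apply mem_norm_of
  obtain ⟨k, hk⟩ := Subgroup.mem_zpowers_iff.1 (norm_conj hsN)
  refine Subgroup.mem_zpowers_iff.2 ⟨k, ?_⟩
  have := congrArg Subtype.val hk
  simpa using this

/-- No element of order three commutes with an element of order seven. -/
theorem no_three_seven {w d : G} (h3 : w ^ 3 = 1) (h1 : w ≠ 1) (hd : orderOf d = 7) (hc : Commute w d) :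
    False := by
  haveI hp3 : Fact (Nat.Prime 3) := ⟨by norm_num⟩
  haveI hp2 : Fact (Nat.Prime 2) := ⟨Nat.prime_two⟩
  haveI hp5 : Fact (Nat.Prime 5) := ⟨by norm_num⟩
  have ho3 : orderOf w = 3 := orderOf_eq_prime h3 h1
  have hdw : d ∈ HH w := mem_HH.2 hc.symm.eq
  have h7 : 7 ∣ Nat.card (HH w) := by
    have := dvd_of_mem (HH w) hdw
    rwa [hd] at this
  by_cases hZ : ∃ e, IsConj z e ∧ Commute e w
  · obtain ⟨e, he, hew⟩ := hZ
    exact no_z7 h hv₀ hn he hew h3 h1 hd hc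
  by_cases hT : ∃ t, IsConj t₀.1 t ∧ Commute t w
  · obtain ⟨t, ht, htw⟩ := hT
    have hto : orderOf t = 2 := by
      rw [← order_conj ht]
      exact h.ot
    have h2 : 2 ∣ Nat.card (HH w) := by
      have := dvd_of_mem (HH w) (mem_HH.2 htw)
      rwa [hto] at this
    have h3' : 3 ∣ Nat.card (HH w) := by
      have := dvd_of_mem (HH w) (mem_HH.2 rfl : w ∈ HH w)
      rwa [ho3] at this
    have hpos : 0 < Nat.card (HH w) := Nat.card_pos
    rcases T_card h hv₀ hn ht htw h3 h1 with e | e <;> omega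
  -- no involutions
  push Not at hZ hT
  have hS2 : ¬ 2 ∣ Nat.card (HH w) := by
    intro hd2
    obtain ⟨v, hv, hvo⟩ := cauchy_sub (HH w) 2 hd2
    have hvv := sq_of_order hvo
    have hv1 : v ≠ 1 := by
      rintro rfl
      simp at hvo
    rcases h.all v hvv hv1 with e | e
    · exact hZ v e (mem_HH.1 hv)
    · exact hT v e (mem_HH.1 hv)
  have hS5 : ¬ 5 ∣ Nat.card (HH w) := by
    intro hd5
    obtain ⟨x, hx, hxo⟩ := cauchy_sub (HH w) 5 hd5
    obtain ⟨e, he, hew⟩ := five_three h hv₀ hn hxo h3 h1 (mem_HH.1 hx).symm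
    exact hZ e he hew
  have hS27 : ¬ 27 ∣ Nat.card (HH w) := by
    intro hd27
    obtain ⟨R, hR⟩ := exists_syl_le (HH w) 3 3 (by simpa using hd27) (by rw [h.card_G]; norm_num)
    have hwc : ∀ r ∈ (R : Subgroup G), Commute r w := fun r hr => mem_HH.1 (hR hr)
    have hwR : w ∈ (R : Subgroup G) := mem_syl_of_comm 3 R (n := 1) (by simpa using h3) hwc
    obtain ⟨w₀, hw₀, hw₀o, hw₀c, e, he, hew⟩ := syl_central h hv₀ hn R
    have hm := cen_unique h hv₀ hn R hw₀ hwR hw₀o hw₀c hwc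
    obtain ⟨k, rfl⟩ := Subgroup.mem_zpowers_iff.1 hm
    exact hZ e he (hew.zpow_right k)
  have hS9 : 9 ∣ Nat.card (HH w) := by
    obtain ⟨P, hP⟩ := exists_syl_mem 3 ho3
    obtain ⟨w₀, hw₀, hw₀o, hw₀c, e, he, hew⟩ := syl_central h hv₀ hn P
    have hnm : w₀ ∉ Subgroup.zpowers w := by
      intro hm
      have heq := zp_eq3 hw₀o ho3 hm
      have hwm : w ∈ Subgroup.zpowers w₀ := by
        rw [heq]
        exact Subgroup.mem_zpowers w
      obtain ⟨k, rfl⟩ := Subgroup.mem_zpowers_iff.1 hwm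
      exact hZ e he (hew.zpow_right k)
    set A : Subgroup G := (P : Subgroup G) ⊓ Subgroup.centralizer ({w} : Set G) with hA
    have hzA : Subgroup.zpowers w ≤ A :=
      Subgroup.zpowers_le.2 ⟨hP, mem_HH.2 rfl⟩
    have hwA : w₀ ∈ A := ⟨hw₀, mem_HH.2 (hw₀c w hP).symm⟩
    have hgt : 3 < Nat.card A := by
      by_contra hle
      push Not at hle
      have heq := Subgroup.eq_of_le_of_card_ge hzA (by rw [Nat.card_zpowers, ho3]; exact hle)
      rw [← heq] at hwA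
      exact hnm hwA
    have hAd : Nat.card A ∣ 3 ^ 3 := by
      have := Subgroup.card_dvd_of_le (inf_le_left : A ≤ (P : Subgroup G))
      rw [card_syl3 h hv₀ hn P] at this
      have e27 : (3 : ℕ) ^ 3 = 27 := by norm_num
      rw [e27]
      exact this
    have hA9 : 9 ∣ Nat.card A := by
      obtain ⟨k, hk, hk2⟩ := (Nat.dvd_prime_pow (by norm_num : Nat.Prime 3)).1 hAd
      rw [hk2] at hgt ⊢
      interval_cases k <;> first | (exfalso; norm_num at hgt; done) | norm_num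
    exact hA9.trans (Subgroup.card_dvd_of_le inf_le_right)
  have hc2 : Nat.Coprime (Nat.card (HH w)) (2 ^ 7) :=
    Nat.Coprime.pow_right 7 ((Nat.Prime.coprime_iff_not_dvd Nat.prime_two).2 hS2).symm
  have hc5 : Nat.Coprime (Nat.card (HH w)) (5 ^ 2) :=
    Nat.Coprime.pow_right 2 ((Nat.Prime.coprime_iff_not_dvd (by norm_num : Nat.Prime 5)).2 hS5).symm
  have h189 : Nat.card (HH w) ∣ 189 := by
    apply Nat.Coprime.dvd_of_dvd_mul_right (hc2.mul_right hc5)
    norm_num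
    exact dvd_G h (HH w)
  have hm : Nat.card (HH w) ∈ Nat.divisors 189 := Nat.mem_divisors.2 ⟨h189, by norm_num⟩
  have e0 : Nat.divisors 189 = {1, 3, 7, 9, 21, 27, 63, 189} := by decide +kernel
  rw [e0] at hm
  simp only [Finset.mem_insert, Finset.mem_singleton] at hm
  have hS63 : Nat.card (HH w) = 63 := by omega
  have hle := normal63 (HH w) hS63 hdw hd
  have h63N : 63 ∣ Nat.card (NN d) := by
    have := Subgroup.card_dvd_of_le hle
    rwa [hS63] at this
  have h3d : 3 ∣ Nat.card (HH d) := by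
    have := dvd_of_mem (HH d) (mem_HH.2 hc.eq : w ∈ HH d)
    rwa [ho3] at this
  rw [← OT_card d] at h63N
  rcases cases7 h hv₀ hn hd with ⟨e1, e2⟩ | ⟨e1, e2⟩ | ⟨e1, e2⟩ | ⟨e1, e2⟩
  · rw [e1] at h3d
    omega
  · rw [e1, e2] at h63N
    omega
  · exact no_63_3 h hv₀ hn hd e1 e2
  · exact no_189 h hv₀ hn hd e1

/-- The main theorem on Sylow 7-subgroups. -/
theorem main_seven (D : Sylow 7 G) : Subgroup.centralizer ((D : Subgroup G) : Set G) = D ∧
    Nat.card (Subgroup.normalizer ((D : Subgroup G) : Set G)) = 42 ∧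
    ¬ IsMulCommutative (Subgroup.normalizer ((D : Subgroup G) : Set G)) := by
  haveI hp7 : Fact (Nat.Prime 7) := ⟨by norm_num⟩
  haveI hp3 : Fact (Nat.Prime 3) := ⟨by norm_num⟩
  -- the order of the subgroup
  have hD7 : Nat.card (D : Subgroup G) = 7 := by
    obtain ⟨k, hk⟩ := IsPGroup.iff_card.1 D.isPGroup'
    have hmul := Subgroup.card_mul_index (D : Subgroup G)
    rw [hk, h.card_G] at hmul
    have hidx : ¬ 7 ∣ (D : Subgroup G).index := D.not_dvd_index
    have hk3 : k < 2 := by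
      by_contra hne
      have h1 : 7 ^ 2 ∣ 7 ^ k := pow_dvd_pow 7 (by omega)
      have h2 : 7 ^ k ∣ 604800 := ⟨_, hmul.symm⟩
      have h3 := h1.trans h2
      norm_num at h3
    have hk2 : k = 1 := by
      interval_cases k
      · norm_num at hmul
        rw [hmul] at hidx
        norm_num at hidx
      · rfl
    rw [hk, hk2]
    norm_num
  obtain ⟨d, hdD, hd⟩ := cauchy_sub (D : Subgroup G) 7 (by rw [hD7])
  have hDeq : (D : Subgroup G) = Subgroup.zpowers d := by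
    symm
    apply Subgroup.eq_of_le_of_card_ge (Subgroup.zpowers_le.2 hdD)
    rw [hD7, Nat.card_zpowers, hd]
  have hno3 : ¬ 3 ∣ Nat.card (HH d) := by
    intro hd3
    obtain ⟨w, hw, hwo⟩ := cauchy_sub (HH d) 3 hd3
    have hw3 : w ^ 3 = 1 := by
      rw [← hwo]
      exact pow_orderOf_eq_one w
    have hw1 : w ≠ 1 := by
      rintro rfl
      simp at hwo
    exact no_three_seven h hv₀ hn hw3 hw1 hd (mem_HH.1 hw)
  have hcases : Nat.card (HH d) = 7 ∧ Nat.card (OT d) = 6 := by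
    rcases cases7 h hv₀ hn hd with e | ⟨e1, e2⟩ | ⟨e1, e2⟩ | ⟨e1, e2⟩
    · exact e
    · rw [e1] at hno3
      omega
    · rw [e1] at hno3
      omega
    · rw [e1] at hno3
      omega
  obtain ⟨hC7, hO6⟩ := hcases
  have hCeq : HH d = Subgroup.zpowers d := by
    symm
    apply Subgroup.eq_of_le_of_card_ge (Subgroup.zpowers_le.2 (mem_HH.2 rfl))
    rw [hC7, Nat.card_zpowers, hd]
  have hcent : Subgroup.centralizer ((Subgroup.zpowers d : Subgroup G) : Set G) = HH d := by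
    ext g
    rw [Subgroup.mem_centralizer_iff, Subgroup.mem_centralizer_singleton_iff]
    constructor
    · intro hg
      exact (hg d (Subgroup.mem_zpowers d)).symm
    · intro hg p hp
      obtain ⟨k, rfl⟩ := Subgroup.mem_zpowers_iff.1 hp
      exact ((show Commute g d from hg).zpow_right k).symm.eq
  have hN42 : Nat.card (NN d) = 42 := by
    rw [← OT_card d, hC7, hO6]
  rw [hDeq]
  refine ⟨by rw [hcent, hCeq], hN42, ?_⟩
  intro hcm
  have hle : NN d ≤ HH d := by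
    intro g hg
    have := hcm.is_comm.comm (⟨g, hg⟩ : NN d) ⟨d, HH_le_NN d (mem_HH.2 rfl)⟩
    exact mem_HH.2 (congrArg Subtype.val this)
  have := Subgroup.card_dvd_of_le hle
  rw [hN42, hC7] at this
  omega

end Main

end Cfsg.Agent.Lib.HJSevenD
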