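import Mathlib
import Cfsg.Agent.Lib.HJSevenD

set_option autoImplicit false
set_option linter.all false

namespace Cfsg.Agent.Lib.HJSevenE

open Cfsg.Agent.Lib.HJBase Cfsg.Agent.Lib.CITFour Cfsg.Agent.Lib.CITFive Cfsg.Agent.Lib.HJType
open Cfsg.Agent.Lib.HJTypeB Cfsg.Agent.Lib.HJFive Cfsg.Agent.Lib.HJFiveB Cfsg.Agent.Lib.HJSevenA
open Cfsg.Agent.Lib.HJSevenB Cfsg.Agent.Lib.HJSevenC Cfsg.Agent.Lib.HJSevenD
open Cfsg.Agent.Lib.HJType.TC Cfsg.Agent.Lib.HJTypeB.TC
open Cfsg.Agent.S3313 (commute_of_inv order_conj order_two sq_of_order)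
open scoped commutatorElement

theorem dvd27 {n : ℕ} (h : n ∣ 27) : n = 1 ∨ n = 3 ∨ n = 9 ∨ n = 27 := by
  have hm : n ∈ Nat.divisors 27 := Nat.mem_divisors.2 ⟨h, by norm_num⟩
  have e : Nat.divisors 27 = {1, 3, 9, 27} := by decide +kernel
  rw [e] at hm
  simpa using hm

section Extra

variable {R : Type*} [Group R] [Finite R]

omit [Finite R] in
theorem comm_small [Finite R] (hc : Nat.card R = 1 ∨ Nat.card R = 3 ∨ Nat.card R = 9) (a b : R) : a * b = b * a := by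
  haveI hp3 : Fact (Nat.Prime 3) := ⟨by norm_num⟩
  rcases hc with e | e | e
  · haveI : Subsingleton R := (Nat.card_eq_one_iff_unique.1 e).1
    exact Subsingleton.elim _ _
  · haveI : IsCyclic R := isCyclic_of_prime_card e
    exact (IsCyclic.commutative (α := R)).is_comm.comm a b
  · have := IsPGroup.isMulCommutative_of_card_eq_prime_sq (p := 3) (G := R) (by rw [e]; norm_num)
    exact this.is_comm.comm a b

/-- A nonabelian group of order 27 is extraspecial. -/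
theorem extra27 (hR : Nat.card R = 27) {a b : R} (hab : a * b ≠ b * a) : Cfsg.IsExtraspecial 3 R := by
  haveI hp3 : Fact (Nat.Prime 3) := ⟨by norm_num⟩
  have hp : IsPGroup 3 R := IsPGroup.of_card (n := 3) (by rw [hR]; norm_num)
  haveI : Nontrivial R := by
    refine ⟨a, b, ?_⟩
    rintro rfl
    exact hab rfl
  have hnt : Nontrivial (Subgroup.center R) := hp.center_nontrivial
  have hZle : Nat.card (Subgroup.center R) ≤ 3 := by
    by_contra hne
    push Not at hne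
    exact hab (ab_of_center hR hne a b)
  have hZd : Nat.card (Subgroup.center R) ∣ 27 := by
    have := Subgroup.card_subgroup_dvd_card (Subgroup.center R)
    rwa [hR] at this
  have hZ1 : 1 < Nat.card (Subgroup.center R) := Finite.one_lt_card
  have hZ3 : Nat.card (Subgroup.center R) = 3 := by
    rcases dvd27 hZd with e | e | e | e <;> omega
  -- the commutator subgroup
  have hi := Subgroup.card_mul_index (Subgroup.center R)
  rw [hZ3, hR] at hi
  have hi9 : (Subgroup.center R).index = 9 := by omega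
  have hq9 : Nat.card (R ⧸ Subgroup.center R) = 3 ^ 2 := by
    rw [← Subgroup.index_eq_card, hi9]
    norm_num
  have hqc := IsPGroup.isMulCommutative_of_card_eq_prime_sq hq9
  have hcle : commutator R ≤ Subgroup.center R := by
    rw [commutator_def, Subgroup.commutator_le]
    intro g₁ _ g₂ _
    rw [← QuotientGroup.eq_one_iff, commutatorElement_def]
    have e := hqc.is_comm.comm (g₁ : R ⧸ Subgroup.center R) (g₂ : R ⧸ Subgroup.center R)
    simp only [QuotientGroup.mk_mul, QuotientGroup.mk_inv]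
    rw [e]
    group
  have hcne : commutator R ≠ ⊥ := by
    intro e
    apply hab
    have h1 : ⁅a, b⁆ ∈ commutator R := by
      rw [commutator_def]
      exact Subgroup.commutator_mem_commutator (Subgroup.mem_top a) (Subgroup.mem_top b)
    rw [e, Subgroup.mem_bot, commutatorElement_eq_one_iff_mul_comm] at h1
    exact h1
  have hcZ : commutator R = Subgroup.center R := by
    have hd := Subgroup.card_dvd_of_le hcle
    rw [hZ3] at hd
    have hc1 : Nat.card (commutator R) ≠ 1 := by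
      intro e
      exact hcne (Subgroup.eq_bot_of_card_eq _ e)
    have hc3 : Nat.card (commutator R) = 3 := by
      rcases (Nat.dvd_prime (by norm_num : Nat.Prime 3)).1 hd with e | e
      · exact absurd e hc1
      · exact e
    exact Subgroup.eq_of_le_of_card_ge hcle (by rw [hZ3, hc3])
  -- the Frattini subgroup
  have hZlt : ∀ x y : R, x * y ≠ y * x → Nat.card (Subgroup.centralizer ({x} : Set R)) = 9 ∧
      IsCoatom (Subgroup.centralizer ({x} : Set R)) := by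
    intro x y hxy
    set M := Subgroup.centralizer ({x} : Set R) with hM
    have hZM : Subgroup.center R ≤ M := by
      intro g hg
      rw [hM, Subgroup.mem_centralizer_singleton_iff]
      exact (Subgroup.mem_center_iff.1 hg x).symm
    have hxM : x ∈ M := by
      rw [hM, Subgroup.mem_centralizer_singleton_iff]
    have hyM : y ∉ M := by
      intro hy
      rw [hM, Subgroup.mem_centralizer_singleton_iff] at hy
      exact hxy hy.symm
    have hxZ : x ∉ Subgroup.center R := by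
      intro hx
      exact hxy (Subgroup.mem_center_iff.1 hx y).symm
    have hMd : Nat.card M ∣ 27 := by
      have := Subgroup.card_subgroup_dvd_card M
      rwa [hR] at this
    have hMgt : 3 < Nat.card M := by
      by_contra hle
      push Not at hle
      have heq := Subgroup.eq_of_le_of_card_ge hZM (by rw [hZ3]; exact hle)
      rw [← heq] at hxM
      exact hxZ hxM
    have hMne : Nat.card M ≠ 27 := by
      intro e
      have heq : M = ⊤ := Subgroup.eq_top_of_card_eq _ (by rw [e, hR])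
      rw [heq] at hyM
      exact hyM trivial
    have hM9 : Nat.card M = 9 := by
      rcases dvd27 hMd with e | e | e | e <;> omega
    refine ⟨hM9, ?_, ?_⟩
    · intro e
      rw [e] at hyM
      exact hyM trivial
    · intro K hK
      have hKd : Nat.card K ∣ 27 := by
        have := Subgroup.card_subgroup_dvd_card K
        rwa [hR] at this
      have h9K : 9 ∣ Nat.card K := by
        have := Subgroup.card_dvd_of_le hK.le
        rwa [hM9] at this
      have hKgt : 9 < Nat.card K := by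
        by_contra hle
        push Not at hle
        have heq := Subgroup.eq_of_le_of_card_ge hK.le (by rw [hM9]; exact hle)
        exact hK.ne heq
      apply Subgroup.eq_top_of_card_eq
      rw [hR]
      rcases dvd27 hKd with e | e | e | e <;> omega
  have hfZ : frattini R = Subgroup.center R := by
    apply le_antisymm
    · obtain ⟨hMa, hCa⟩ := hZlt a b hab
      obtain ⟨hMb, hCb⟩ := hZlt b a (Ne.symm hab)
      have h1 := frattini_le_coatom hCa
      have h2 := frattini_le_coatom hCb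
      have hle : frattini R ≤ Subgroup.centralizer ({a} : Set R) ⊓ Subgroup.centralizer ({b} : Set R) := le_inf h1 h2
      refine hle.trans ?_
      have hZI : Subgroup.center R ≤ Subgroup.centralizer ({a} : Set R) ⊓ Subgroup.centralizer ({b} : Set R) := by
        intro g hg
        constructor
        · exact Subgroup.mem_centralizer_singleton_iff.2 (Subgroup.mem_center_iff.1 hg a).symm
        · exact Subgroup.mem_centralizer_singleton_iff.2 (Subgroup.mem_center_iff.1 hg b).symm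
      have hId : Nat.card ↥(Subgroup.centralizer ({a} : Set R) ⊓ Subgroup.centralizer ({b} : Set R)) ∣ 9 := by
        have := Subgroup.card_dvd_of_le (inf_le_left : Subgroup.centralizer ({a} : Set R) ⊓ Subgroup.centralizer ({b} : Set R) ≤ Subgroup.centralizer ({a} : Set R))
        rwa [hMa] at this
      have hIne : Nat.card ↥(Subgroup.centralizer ({a} : Set R) ⊓ Subgroup.centralizer ({b} : Set R)) ≠ 9 := by
        intro e
        have heq := Subgroup.eq_of_le_of_card_ge (inf_le_left : Subgroup.centralizer ({a} : Set R) ⊓ Subgroup.centralizer ({b} : Set R) ≤ Subgroup.centralizer ({a} : Set R)) (by rw [hMa, e])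
        have haM : a ∈ Subgroup.centralizer ({a} : Set R) := by
          rw [Subgroup.mem_centralizer_singleton_iff]
        rw [← heq] at haM
        have := Subgroup.mem_centralizer_singleton_iff.1 haM.2
        exact hab this
      have hIle : Nat.card ↥(Subgroup.centralizer ({a} : Set R) ⊓ Subgroup.centralizer ({b} : Set R)) ≤ 3 := by
        rcases dvd27 (hId.trans (by norm_num : 9 ∣ 27)) with e | e | e | e
        · omega
        · omega
        · omega
        · rw [e] at hId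
          omega
      have heq := Subgroup.eq_of_le_of_card_ge hZI (by rw [hZ3]; exact hIle)
      rw [heq]
    · rw [frattini, Order.radical]
      apply le_iInf
      intro K
      apply le_iInf
      intro hK
      by_contra hnot
      have hsup : K ⊔ Subgroup.center R = ⊤ :=
        hK.2 _ (lt_of_le_of_ne le_sup_left (fun e => hnot (by rw [e]; exact le_sup_right)))
      have hKne : Nat.card K ≠ 27 := by
        intro e
        exact hK.1 (Subgroup.eq_top_of_card_eq _ (by rw [e, hR]))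
      have hKd : Nat.card K ∣ 27 := by
        have := Subgroup.card_subgroup_dvd_card K
        rwa [hR] at this
      have hKs : Nat.card K = 1 ∨ Nat.card K = 3 ∨ Nat.card K = 9 := by
        rcases dvd27 hKd with e | e | e | e <;> omega
      have hdec : ∀ g : R, ∃ k ∈ K, ∃ w ∈ Subgroup.center R, k * w = g := by
        intro g
        have hg : g ∈ ((K ⊔ Subgroup.center R : Subgroup R) : Set R) := by
          rw [hsup]
          trivial
        rw [Subgroup.mul_normal] at hg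
        obtain ⟨k, hk, w, hw, e⟩ := Set.mem_mul.1 hg
        exact ⟨k, hk, w, hw, e⟩
      obtain ⟨k₁, hk₁, w₁, hw₁, rfl⟩ := hdec a
      obtain ⟨k₂, hk₂, w₂, hw₂, rfl⟩ := hdec b
      apply hab
      have e0 : k₁ * k₂ = k₂ * k₁ := by
        have := comm_small hKs (⟨k₁, hk₁⟩ : K) ⟨k₂, hk₂⟩
        exact congrArg Subtype.val this
      have c1 := Subgroup.mem_center_iff.1 hw₁
      have c2 := Subgroup.mem_center_iff.1 hw₂
      calc k₁ * w₁ * (k₂ * w₂) = k₁ * (w₁ * k₂) * w₂ := by group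
        _ = k₁ * (k₂ * w₁) * w₂ := by rw [(c1 k₂).symm]
        _ = (k₁ * k₂) * (w₁ * w₂) := by group
        _ = (k₂ * k₁) * (w₂ * w₁) := by rw [e0, (c2 w₁).symm]
        _ = k₂ * (k₁ * w₂) * w₁ := by group
        _ = k₂ * (w₂ * k₁) * w₁ := by rw [c2 k₁]
        _ = k₂ * w₂ * (k₁ * w₁) := by group
  exact ⟨⟨hp, hfZ, hcZ⟩, hZ3⟩

end Extra

theorem A4_inv_aux : ∀ a b : alternatingGroup (Fin 4), (a * a ≠ 1 ∨ b * b ≠ 1) ∨ a * b = b * a := by
  decide +kernel

theorem A5_conj3_aux : ∀ a b : alternatingGroup (Fin 5), (a ^ 3 ≠ 1 ∨ a = 1 ∨ b ^ 3 ≠ 1 ∨ b = 1) ∨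
    ∃ g : alternatingGroup (Fin 5), g * a * g⁻¹ = b := by
  decide +kernel

theorem mem_zp3 {Γ : Type*} [Group Γ] {x y : Γ} (hx : x ^ 3 = 1) (hy : y ∈ Subgroup.zpowers x) :
    y = 1 ∨ y = x ∨ y = x⁻¹ := by
  obtain ⟨k, rfl⟩ := Subgroup.mem_zpowers_iff.1 hy
  have hk : x ^ k = x ^ (k % 3) := by
    conv_lhs => rw [← Int.mul_ediv_add_emod k 3]
    rw [zpow_add, zpow_mul]
    have : x ^ (3 : ℤ) = 1 := by exact_mod_cast hx
    rw [this, one_zpow, one_mul]
  have h3 : k % 3 = 0 ∨ k % 3 = 1 ∨ k % 3 = 2 := by omega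
  rcases h3 with e | e | e
  · left
    rw [hk, e, zpow_zero]
  · right; left
    rw [hk, e, zpow_one]
  · right; right
    rw [hk, e]
    have e2 : x ^ (2 : ℤ) * x = 1 := by
      have : x ^ (3 : ℤ) = 1 := by exact_mod_cast hx
      rw [← this, ← zpow_add_one]
      norm_num
    exact eq_inv_of_mul_eq_one_left e2

section TT2

variable {G : Type*} [Group G] [Finite G] {z : G} {Q : Subgroup (HH z)} {t₀ : HH z}

variable (h : TC z t₀ Q) {v₀ : LL t₀} (hv₀ : v₀ ∈ setA z t₀) (hn : ¬ Commute (bL t₀) v₀)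

include h hv₀ hn

theorem D_M_inter {a : G} (hD : a ∈ Dg z t₀ v₀) (hM : a ∈ Mg z t₀) : a = 1 := by
  obtain ⟨m, hm, rfl⟩ := hM
  have hmY : m ∈ YY t₀ v₀ := by
    refine mem_YY.2 ⟨?_, ?_⟩
    · apply Subtype.ext
      exact (mem_Dg.1 hD).2 _ (z_mem_Mg h hv₀ hn)
    · apply Subtype.ext
      exact (mem_Dg.1 hD).2 _ (v_mem_Mg h hv₀ hn)
  have := Y_M h hv₀ hn hmY hm
  exact congrArg Subtype.val this

/-- Exclusivity of the types. -/
theorem excl {w t e : G} (ht : IsConj t₀.1 t) (htw : Commute t w) (he : IsConj z e) (hew : Commute e w)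
    (h3 : w ^ 3 = 1) (h1 : w ≠ 1) : False := by
  have hee := zconj_inv he h.zz
  have he1 := zconj_ne he h.z1
  have := T_all' h hv₀ hn ht htw h3 h1 hee he1 hew
  exact h.zt (he.trans this.symm)

theorem not_five_T {w t : G} (ht : IsConj t₀.1 t) (htw : Commute t w) (h3 : w ^ 3 = 1) (h1 : w ≠ 1) :
    ¬ 5 ∣ Nat.card (HH w) := by
  haveI hp5 : Fact (Nat.Prime 5) := ⟨by norm_num⟩
  intro hd
  obtain ⟨x, hx, hxo⟩ := cauchy_sub (HH w) 5 hd
  obtain ⟨e, he, hew⟩ := five_three h hv₀ hn hxo h3 h1 (mem_HH.1 hx).symm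
  exact excl h hv₀ hn ht htw he hew h3 h1

/-- The shape of the centralizer of an element of order three of the second centralizer. -/
theorem T_36₀ {w : G} (hw : w ∈ HH t₀.1) (h3 : w ^ 3 = 1) (h1 : w ≠ 1) :
    Nat.card (HH w) = 36 ∧ ∀ u : G, u * u = 1 → u ≠ 1 → Commute u w → u ∈ Yg t₀ v₀ := by
  haveI hp3 : Fact (Nat.Prime 3) := ⟨by norm_num⟩
  have hwM : w ∈ Mg z t₀ := ⟨⟨w, hw⟩, w_mem_M h hv₀ hn hw h3, rfl⟩
  have hDle : Dg z t₀ v₀ ≤ HH w := fun g hg => mem_HH.2 ((mem_Dg.1 hg).2 w hwM)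
  have hle36 : Nat.card (HH w) ≤ 36 := by
    rcases T_card₀ h hv₀ hn hw h3 h1 with e | e
    · exact e
    · exfalso
      apply not_five_T h hv₀ hn (IsConj.refl t₀.1) (mem_HH.1 hw).symm h3 h1
      rw [e]
      norm_num
  have hzc : Nat.card (Subgroup.zpowers w) = 3 := by
    rw [Nat.card_zpowers, orderOf_eq_prime h3 h1]
  have hzM : Subgroup.zpowers w ≤ Mg z t₀ := Subgroup.zpowers_le.2 hwM
  let f : Dg z t₀ v₀ × Subgroup.zpowers w → HH w := fun p =>
    ⟨p.1.1 * p.2.1, (HH w).mul_mem (hDle p.1.2) (by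
      obtain ⟨k, hk⟩ := Subgroup.mem_zpowers_iff.1 p.2.2
      rw [← hk]
      exact mem_HH.2 (((Commute.refl w).zpow_left k)))⟩
  have hinj : Function.Injective f := by
    rintro ⟨⟨x, hx⟩, ⟨y, hy⟩⟩ ⟨⟨x', hx'⟩, ⟨y', hy'⟩⟩ e
    have e1 : x * y = x' * y' := congrArg Subtype.val e
    have hg : x'⁻¹ * x = y' * y⁻¹ := by
      calc x'⁻¹ * x = x'⁻¹ * (x * y) * y⁻¹ := by group
        _ = x'⁻¹ * (x' * y') * y⁻¹ := by rw [e1]
        _ = y' * y⁻¹ := by group
    have h1' : x'⁻¹ * x = 1 := by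
      apply D_M_inter h hv₀ hn (Subgroup.mul_mem _ (Subgroup.inv_mem _ hx') hx)
      rw [hg]
      exact hzM (Subgroup.mul_mem _ hy' (Subgroup.inv_mem _ hy))
    have e2 : x = x' := (inv_mul_eq_one.1 h1').symm
    subst e2
    have e3 : y = y' := mul_left_cancel e1
    subst e3
    rfl
  have hcard : Nat.card (Dg z t₀ v₀ × Subgroup.zpowers w) = 36 := by
    rw [Nat.card_prod, card_D h hv₀ hn, hzc]
  have hge := Nat.card_le_card_of_injective f hinj
  rw [hcard] at hge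
  have h36 : Nat.card (HH w) = 36 := le_antisymm hle36 hge
  have hbij := (Nat.bijective_iff_injective_and_card f).2 ⟨hinj, by rw [hcard, h36]⟩
  refine ⟨h36, ?_⟩
  intro u huu hu1 huw
  obtain ⟨⟨⟨δ, hδ⟩, ⟨y, hy⟩⟩, e⟩ := hbij.2 ⟨u, mem_HH.2 huw⟩
  have e1 : δ * y = u := congrArg Subtype.val e
  have hcδ : Commute δ y := (mem_Dg.1 hδ).2 y (hzM hy)
  have e2 : (δ * δ) * (y * y) = 1 := by
    rw [← huu, ← e1]
    calc (δ * δ) * (y * y) = δ * (δ * y) * y := by group
      _ = δ * (y * δ) * y := by rw [hcδ.eq]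
      _ = (δ * y) * (δ * y) := by group
  have e3 : δ * δ = (y * y)⁻¹ := eq_inv_of_mul_eq_one_left e2
  have hδδ : δ * δ = 1 := by
    apply D_M_inter h hv₀ hn (Subgroup.mul_mem _ hδ hδ)
    rw [e3]
    exact Subgroup.inv_mem _ (Subgroup.mul_mem _ (hzM hy) (hzM hy))
  have hyy : y * y = 1 := by
    rw [hδδ, one_mul] at e2
    exact e2
  have hy3 : y ^ 3 = 1 := (cent_mem3 (c := (⟨w, mem_HH.2 rfl⟩ : HH w)) (Subtype.ext h3) (fun g => Subtype.ext (mem_HH.1 g.2)) (w := (⟨y, by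
      obtain ⟨k, hk⟩ := Subgroup.mem_zpowers_iff.1 hy
      rw [← hk]
      exact mem_HH.2 ((Commute.refl w).zpow_left k)⟩ : HH w)) (by
      obtain ⟨k, hk⟩ := Subgroup.mem_zpowers_iff.1 hy
      refine Subgroup.mem_zpowers_iff.2 ⟨k, ?_⟩
      apply Subtype.ext
      exact hk)).1 |> congrArg Subtype.val
  have hy1 : y = 1 := cent_sq3 hy3 hyy
  rw [hy1, mul_one] at e1
  subst e1
  -- commuting with the base involution
  obtain ⟨e₁⟩ := D_iso h hv₀ hn
  have htD : t₀.1 ∈ Dg z t₀ v₀ := Y_le_D h hv₀ hn (t_mem h hv₀ hn)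
  let a : Dg z t₀ v₀ := ⟨δ, hδ⟩
  let b : Dg z t₀ v₀ := ⟨t₀.1, htD⟩
  have haa : a * a = 1 := Subtype.ext hδδ
  have hbb : b * b = 1 := Subtype.ext h.tt'
  have hab : a * b = b * a := by
    apply e₁.injective
    rw [map_mul, map_mul]
    rcases A4_inv_aux (e₁ a) (e₁ b) with (e4 | e4) | e4
    · exact absurd (by rw [← map_mul, haa, map_one]) e4
    · exact absurd (by rw [← map_mul, hbb, map_one]) e4
    · exact e4
  have hct : Commute δ t₀.1 := congrArg Subtype.val hab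
  rw [← D_inf h hv₀ hn]
  exact ⟨hδ, mem_HH.2 hct⟩

theorem T_count₀ {w : G} (hw : w ∈ HH t₀.1) (h3 : w ^ 3 = 1) (h1 : w ≠ 1) :
    Nat.card (FF t₀.1 w) = 3 := by
  have e : FF t₀.1 w = Ys t₀ v₀ := by
    ext u
    constructor
    · rintro ⟨hu, huw⟩
      have huu : u * u = 1 := zconj_inv hu h.tt'
      have hu1 : u ≠ 1 := zconj_ne hu h.t1
      exact ⟨(T_36₀ h hv₀ hn hw h3 h1).2 u huu hu1 huw, hu1⟩
    · rintro ⟨huY, hu1⟩
      exact ⟨Y_t h hv₀ hn huY hu1, ((mem_Yg' h hv₀ hn).1 huY).2 w hw⟩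
  rw [e]
  exact card_Ys h hv₀ hn

theorem T_count {w t : G} (ht : IsConj t₀.1 t) (htw : Commute t w) (h3 : w ^ 3 = 1) (h1 : w ≠ 1) :
    Nat.card (FF t₀.1 w) = 3 ∧ Nat.card (HH w) = 36 := by
  obtain ⟨c, rfl⟩ := isConj_iff.1 ht
  have e1 : c⁻¹ * (c * t₀.1 * c⁻¹) * c⁻¹⁻¹ = t₀.1 := by group
  have hw' : c⁻¹ * w * c⁻¹⁻¹ ∈ HH t₀.1 := by
    have := cconj htw c⁻¹
    rw [e1] at this
    exact mem_HH.2 this.symm
  have hw3 : (c⁻¹ * w * c⁻¹⁻¹) ^ 3 = 1 := by
    rw [conj_pow, h3]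
    group
  have hw1 : c⁻¹ * w * c⁻¹⁻¹ ≠ 1 := by
    intro e
    apply h1
    have e2 : w = c * (c⁻¹ * w * c⁻¹⁻¹) * c⁻¹ := by group
    rw [e2, e]
    group
  constructor
  · have := T_count₀ h hv₀ hn hw' hw3 hw1
    rwa [card_FF_conj] at this
  · have := (T_36₀ h hv₀ hn hw' hw3 hw1).1
    rwa [card_centralizer_conj] at this

omit hv₀ hn in
theorem T_order {p t : G} (ht : IsConj t₀.1 t) (htp : Commute t p) (hp : p ^ 27 = 1) (hv : ∃ v₀ : LL t₀, v₀ ∈ setA z t₀ ∧ ¬ Commute (bL t₀) v₀) : p ^ 3 = 1 := by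
  obtain ⟨v₀, hv₀, hn⟩ := hv
  obtain ⟨c, rfl⟩ := isConj_iff.1 ht
  have hc : Nat.card (HH (c * t₀.1 * c⁻¹)) = 240 := by
    rw [card_centralizer_conj]
    exact card_LG h hv₀ hn
  have hm : p ∈ HH (c * t₀.1 * c⁻¹) := mem_HH.2 htp.symm
  have h240 := pow_card_eq_one' (x := (⟨p, hm⟩ : HH (c * t₀.1 * c⁻¹)))
  rw [hc] at h240
  have h240' : p ^ 240 = 1 := congrArg Subtype.val h240
  have := pow_gcd_eq_one.2 ⟨hp, h240'⟩
  have e0 : Nat.gcd 27 240 = 3 := by norm_num
  rwa [e0] at this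

/-- Elements of order three of the second centralizer are conjugate. -/
theorem T_conj₀ {w₁ w₂ : G} (hw₁ : w₁ ∈ HH t₀.1) (hw₂ : w₂ ∈ HH t₀.1) (h31 : w₁ ^ 3 = 1) (h11 : w₁ ≠ 1)
    (h32 : w₂ ^ 3 = 1) (h12 : w₂ ≠ 1) : IsConj w₁ w₂ := by
  obtain ⟨e₂⟩ := M_alt h.ct (card15 h) h.bL_mem
  let a : MM z t₀ := ⟨⟨w₁, hw₁⟩, w_mem_M h hv₀ hn hw₁ h31⟩
  let b : MM z t₀ := ⟨⟨w₂, hw₂⟩, w_mem_M h hv₀ hn hw₂ h32⟩
  have ha3 : a ^ 3 = 1 := Subtype.ext (Subtype.ext h31)
  have hb3 : b ^ 3 = 1 := Subtype.ext (Subtype.ext h32)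
  have ha1 : a ≠ 1 := fun e => h11 (congrArg (fun u : MM z t₀ => u.1.1) e)
  have hb1 : b ≠ 1 := fun e => h12 (congrArg (fun u : MM z t₀ => u.1.1) e)
  have hea3 : e₂ a ^ 3 = 1 := by rw [← map_pow, ha3, map_one]
  have heb3 : e₂ b ^ 3 = 1 := by rw [← map_pow, hb3, map_one]
  have hea1 : e₂ a ≠ 1 := fun e => ha1 ((map_eq_one_iff e₂ e₂.injective).1 e)
  have heb1 : e₂ b ≠ 1 := fun e => hb1 ((map_eq_one_iff e₂ e₂.injective).1 e)
  rcases A5_conj3_aux (e₂ a) (e₂ b) with (e | e | e | e) | ⟨g, hg⟩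
  · exact absurd hea3 e
  · exact absurd e hea1
  · exact absurd heb3 e
  · exact absurd e heb1
  · have e5 : e₂.symm g * a * (e₂.symm g)⁻¹ = b := by
      apply e₂.injective
      simp only [map_mul, map_inv, MulEquiv.apply_symm_apply]
      exact hg
    refine isConj_iff.2 ⟨(e₂.symm g).1.1, ?_⟩
    exact congrArg (fun u : MM z t₀ => u.1.1) e5

theorem T_conj {w₁ w₂ t₁ t₂ : G} (ht₁ : IsConj t₀.1 t₁) (htw₁ : Commute t₁ w₁) (h31 : w₁ ^ 3 = 1) (h11 : w₁ ≠ 1)
    (ht₂ : IsConj t₀.1 t₂) (htw₂ : Commute t₂ w₂) (h32 : w₂ ^ 3 = 1) (h12 : w₂ ≠ 1) : IsConj w₁ w₂ := by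
  have key : ∀ (w t : G), IsConj t₀.1 t → Commute t w → w ^ 3 = 1 → w ≠ 1 →
      ∃ w' ∈ HH t₀.1, w' ^ 3 = 1 ∧ w' ≠ 1 ∧ IsConj w w' := by
    intro w t ht htw h3 h1
    obtain ⟨c, rfl⟩ := isConj_iff.1 ht
    have e1 : c⁻¹ * (c * t₀.1 * c⁻¹) * c⁻¹⁻¹ = t₀.1 := by group
    refine ⟨c⁻¹ * w * c⁻¹⁻¹, ?_, ?_, ?_, isConj_iff.2 ⟨c⁻¹, rfl⟩⟩
    · have := cconj htw c⁻¹
      rw [e1] at this
      exact mem_HH.2 this.symm
    · rw [conj_pow, h3]
      group
    · intro e
      apply h1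
      have e2 : w = c * (c⁻¹ * w * c⁻¹⁻¹) * c⁻¹ := by group
      rw [e2, e]
      group
  obtain ⟨a, ha, ha3, ha1, hca⟩ := key w₁ t₁ ht₁ htw₁ h31 h11
  obtain ⟨b, hb, hb3, hb1, hcb⟩ := key w₂ t₂ ht₂ htw₂ h32 h12
  exact hca.trans ((T_conj₀ h hv₀ hn ha hb ha3 ha1 hb3 hb1).trans hcb.symm)

end TT2

section Three

variable {G : Type*} [Group G] [Finite G] {z : G} {Q : Subgroup (HH z)} {t₀ : HH z}

/-- The normalizer of the Sylow subgroup inside the centralizer. -/
abbrev Ng3 (P : Sylow 3 G) (w₀ : G) : Subgroup G :=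
  Subgroup.normalizer (((P : Subgroup G)) : Set G) ⊓ HH w₀

/-- The central element of the first type of a Sylow subgroup. -/
structure WZ (z : G) (P : Sylow 3 G) (w₀ : G) : Prop where
  mem : w₀ ∈ (P : Subgroup G)
  ord : orderOf w₀ = 3
  cen : ∀ p ∈ (P : Subgroup G), Commute p w₀
  ex : ∃ e, IsConj z e ∧ Commute e w₀

variable {P : Sylow 3 G} {w₀ : G}

theorem WZ.pow3 (W : WZ z P w₀) : w₀ ^ 3 = 1 := by
  rw [← W.ord]
  exact pow_orderOf_eq_one w₀

theorem WZ.ne1 (W : WZ z P w₀) : w₀ ≠ 1 := by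
  intro e
  have := W.ord
  rw [e] at this
  simp at this

theorem WZ.le (W : WZ z P w₀) : (P : Subgroup G) ≤ HH w₀ := fun p hp => mem_HH.2 (W.cen p hp)

theorem WZ.le_N (W : WZ z P w₀) : (P : Subgroup G) ≤ Ng3 P w₀ :=
  le_inf Subgroup.le_normalizer W.le

variable (h : TC z t₀ Q) {v₀ : LL t₀} (hv₀ : v₀ ∈ setA z t₀) (hn : ¬ Commute (bL t₀) v₀)

include h hv₀ hn

theorem WZ.card (W : WZ z P w₀) : Nat.card (HH w₀) = 1080 := by
  obtain ⟨e, he, hew⟩ := W.ex
  exact Z_card h hv₀ hn he hew W.pow3 W.ne1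

theorem WZ.DD (W : WZ z P w₀) : DD (zH w₀ : HH w₀) := by
  obtain ⟨e, he, hew⟩ := W.ex
  exact DD_of h W.pow3 W.ne1 (fun v hvv hv1 hvw => Z_all h hv₀ hn he hew W.pow3 W.ne1 hvv hv1 hvw)

/-- The count of Sylow subgroups in the centralizer. -/
theorem norm_count (W : WZ z P w₀) : ∃ i, i % 3 = 1 ∧ Nat.card (Ng3 P w₀) * i = 1080 := by
  haveI hp3 : Fact (Nat.Prime 3) := ⟨by norm_num⟩
  have hle := W.le
  have hc1080 := W.card h hv₀ hn
  set P₀ : Subgroup (HH w₀) := (P : Subgroup G).subgroupOf (HH w₀) with hP₀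
  have hP₀c : Nat.card P₀ = 27 := by
    rw [← card_syl3 h hv₀ hn P]
    exact Nat.card_congr (Subgroup.subgroupOfEquivOfLe hle).toEquiv
  have hpg : IsPGroup 3 P₀ := IsPGroup.of_card (n := 3) (by rw [hP₀c]; norm_num)
  have hidx : ¬ 3 ∣ P₀.index := by
    have e := Subgroup.card_mul_index P₀
    rw [hP₀c, hc1080] at e
    have : P₀.index = 40 := by omega
    rw [this]
    norm_num
  let T : Sylow 3 (HH w₀) := hpg.toSylow hidx
  set N₁ := Subgroup.normalizer ((P₀ : Subgroup (HH w₀)) : Set (HH w₀)) with hN₁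
  have hi1 : Nat.card (Sylow 3 (HH w₀)) % 3 = 1 := card_sylow_modEq_one 3 (HH w₀)
  have hi2 : Nat.card (Sylow 3 (HH w₀)) = N₁.index := Sylow.card_eq_index_normalizer T
  rw [hi2] at hi1
  have hmul := Subgroup.card_mul_index N₁
  rw [hc1080] at hmul
  have hcardN : Nat.card N₁ = Nat.card (Ng3 P w₀) := by
    apply Nat.card_congr
    refine ⟨fun x => ⟨x.1.1, ?_, x.1.2⟩, fun y => ⟨⟨y.1, y.2.2⟩, ?_⟩, fun _ => rfl, fun _ => rfl⟩
    · show x.1.1 ∈ Subgroup.normalizer (((P : Subgroup G)) : Set G)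
      rw [Subgroup.mem_normalizer_iff]
      intro g
      have hx := Subgroup.mem_normalizer_iff.1 x.2
      constructor
      · intro hg
        have := (hx ⟨g, hle hg⟩).1 (Subgroup.mem_subgroupOf.2 hg)
        exact Subgroup.mem_subgroupOf.1 this
      · intro hg
        have hgΓ : g ∈ HH w₀ := by
          have e1 : g = x.1.1⁻¹ * (x.1.1 * g * x.1.1⁻¹) * x.1.1 := by group
          rw [e1]
          exact (HH w₀).mul_mem ((HH w₀).mul_mem ((HH w₀).inv_mem x.1.2) (hle hg)) x.1.2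
        have := (hx ⟨g, hgΓ⟩).2 (Subgroup.mem_subgroupOf.2 hg)
        exact Subgroup.mem_subgroupOf.1 this
    · rw [Subgroup.mem_normalizer_iff]
      intro g
      have hy := Subgroup.mem_normalizer_iff.1 y.2.1 g.1
      exact hy
  exact ⟨N₁.index, hi1, by rw [← hcardN]; exact hmul⟩

/-- No element of order five normalizes the Sylow subgroup inside the centralizer. -/
theorem no5 (W : WZ z P w₀) : ¬ 5 ∣ Nat.card (Ng3 P w₀) := by
  haveI hp5 : Fact (Nat.Prime 5) := ⟨by norm_num⟩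
  intro hd
  obtain ⟨x, hxo⟩ := exists_prime_orderOf_dvd_card' (G := Ng3 P w₀) 5 hd
  have hx5 : x ^ 5 ^ 1 = 1 := by
    rw [pow_one, ← hxo]
    exact pow_orderOf_eq_one x
  have hxo' : orderOf x.1 = 5 := (Subgroup.orderOf_coe x).trans hxo
  set A : Set (Ng3 P w₀) := {y | y.1 ∈ (P : Subgroup G) ∧ y.1 ∉ Subgroup.zpowers w₀} with hA
  have hAc : ∀ u ∈ A, ∀ g : Ng3 P w₀, g * u * g⁻¹ ∈ A := by
    rintro u ⟨hu1, hu2⟩ g
    refine ⟨(Subgroup.mem_normalizer_iff.1 g.2.1 u.1).1 hu1, ?_⟩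
    intro hm
    apply hu2
    obtain ⟨k, hk⟩ := Subgroup.mem_zpowers_iff.1 hm
    refine Subgroup.mem_zpowers_iff.2 ⟨k, ?_⟩
    have e1 : u.1 = g.1⁻¹ * (g.1 * u.1 * g.1⁻¹) * g.1 := by group
    have hgc : Commute g.1 (w₀ ^ k) := (show Commute g.1 w₀ from mem_HH.1 g.2.2).zpow_right k
    have e2 : g.1 * u.1 * g.1⁻¹ = w₀ ^ k := hk.symm
    rw [e1, e2]
    have : g.1⁻¹ * w₀ ^ k * g.1 = w₀ ^ k := by
      have := hgc.eq
      calc g.1⁻¹ * w₀ ^ k * g.1 = g.1⁻¹ * (w₀ ^ k * g.1) := by group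
        _ = g.1⁻¹ * (g.1 * w₀ ^ k) := by rw [this]
        _ = w₀ ^ k := by group
    exact this.symm
  have hA24 : Nat.card A = 24 := by
    have e1 : Nat.card A = Nat.card ↑(((P : Subgroup G) : Set G) \ ((Subgroup.zpowers w₀ : Subgroup G) : Set G)) := by
      apply Nat.card_congr
      exact ⟨fun y => ⟨y.1.1, y.2.1, y.2.2⟩, fun y => ⟨⟨y.1, W.le_N y.2.1⟩, y.2.1, y.2.2⟩, fun _ => rfl, fun _ => rfl⟩
    rw [e1, Nat.card_coe_set_eq, Set.ncard_diff (Subgroup.zpowers_le.2 W.mem) (Set.toFinite _),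
      ← Nat.card_coe_set_eq, ← Nat.card_coe_set_eq]
    have e2 : Nat.card ((P : Subgroup G) : Set G) = 27 := card_syl3 h hv₀ hn P
    have e3 : Nat.card ((Subgroup.zpowers w₀ : Subgroup G) : Set G) = 3 := by
      show Nat.card (Subgroup.zpowers w₀) = 3
      rw [Nat.card_zpowers, W.ord]
    rw [e2, e3]
  have hm := card_mod_conj A hAc 5 1 x hx5
  rw [hA24] at hm
  have hne : Nonempty {y : A // x * y.1 * x⁻¹ = y.1} := by
    by_contra hempty
    rw [not_nonempty_iff] at hempty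
    rw [Nat.card_of_isEmpty] at hm
    unfold Nat.ModEq at hm
    omega
  obtain ⟨⟨⟨y, hy1, hy2⟩, hyc⟩⟩ := hne
  have hxy : Commute x.1 y.1 := comm_of_conj_eq (congrArg Subtype.val hyc)
  set K : Subgroup G := (P : Subgroup G) ⊓ HH x.1 with hK
  have hwK : w₀ ∈ K := ⟨W.mem, mem_HH.2 (mem_HH.1 x.2.2).symm⟩
  have hyK : y.1 ∈ K := ⟨hy1, mem_HH.2 hxy.symm⟩
  have hgt : 3 < Nat.card K := by
    by_contra hle
    push Not at hle
    have heq := Subgroup.eq_of_le_of_card_ge (Subgroup.zpowers_le.2 hwK) (by rw [Nat.card_zpowers, W.ord]; exact hle)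
    rw [← heq] at hyK
    exact hy2 hyK
  have hKd : Nat.card K ∣ 27 := by
    have := Subgroup.card_dvd_of_le (inf_le_left : K ≤ (P : Subgroup G))
    rwa [card_syl3 h hv₀ hn P] at this
  have h9 : 9 ∣ Nat.card K := by
    rcases dvd27 hKd with e | e | e | e <;> omega
  have h9' := h9.trans (Subgroup.card_dvd_of_le (inf_le_right : K ≤ HH x.1))
  rcases card_five h hv₀ hn hxo' with e | e <;> rw [e] at h9' <;> omega

/-- The transfer argument excludes the smallest normalizer. -/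
theorem no27 (W : WZ z P w₀) : Nat.card (Ng3 P w₀) ≠ 27 := by
  classical
  haveI hp3 : Fact (Nat.Prime 3) := ⟨by norm_num⟩
  intro h27
  have hle := W.le
  have hc1080 := W.card h hv₀ hn
  have hNP : Ng3 P w₀ = (P : Subgroup G) := by
    symm
    apply Subgroup.eq_of_le_of_card_ge W.le_N
    rw [h27, card_syl3 h hv₀ hn P]
  have hD := W.DD h hv₀ hn
  -- an involution
  haveI hp2 : Fact (Nat.Prime 2) := ⟨Nat.prime_two⟩
  obtain ⟨a₀, ha₀⟩ := exists_prime_orderOf_dvd_card' (G := HH w₀) 2 (by rw [hc1080]; norm_num)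
  have haa : a₀ * a₀ = 1 := sq_of_order ha₀
  have ha1 : a₀ ≠ 1 := by
    rintro rfl
    simp at ha₀
  -- the quotient
  let c : HH w₀ := zH w₀
  have hc3 : c ^ 3 = 1 := Subtype.ext W.pow3
  have hc1 : c ≠ 1 := fun e => W.ne1 (congrArg Subtype.val e)
  have hcc : ∀ g : HH w₀, Commute g c := fun g => Subtype.ext (mem_HH.1 g.2)
  set Wz := Subgroup.zpowers c with hWz
  have hWm : ∀ x ∈ Wz, x ^ 3 = 1 ∧ ∀ g, Commute g x := fun x hx => cent_mem3 hc3 hcc hx
  haveI hNW : Wz.Normal := ⟨fun n hn g => by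
    rw [conj_eq_of_comm ((hWm n hn).2 g)]
    exact hn⟩
  let mk : HH w₀ →* HH w₀ ⧸ Wz := QuotientGroup.mk' Wz
  have hsurj : Function.Surjective mk := QuotientGroup.mk'_surjective Wz
  have hmk : ∀ x y : HH w₀, mk x = mk y ↔ x⁻¹ * y ∈ Wz := fun x y => QuotientGroup.eq
  have hker : mk.ker = Wz := QuotientGroup.ker_mk' Wz
  have hcardW : Nat.card Wz = 3 := by
    rw [hWz, Nat.card_zpowers, orderOf_eq_prime hc3 hc1]
  have hcardq : Nat.card (HH w₀ ⧸ Wz) = 360 := by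
    have := Subgroup.card_eq_card_quotient_mul_card_subgroup Wz
    rw [hcardW, hc1080] at this
    omega
  set P₀ : Subgroup (HH w₀) := (P : Subgroup G).subgroupOf (HH w₀) with hP₀
  have hP₀c : Nat.card P₀ = 27 := by
    rw [← card_syl3 h hv₀ hn P]
    exact Nat.card_congr (Subgroup.subgroupOfEquivOfLe hle).toEquiv
  have hcP₀ : c ∈ P₀ := Subgroup.mem_subgroupOf.2 W.mem
  have hWP₀ : Wz ≤ P₀ := Subgroup.zpowers_le.2 hcP₀
  have hidxP₀ : P₀.index = 40 := by
    have e := Subgroup.card_mul_index P₀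
    rw [hP₀c, hc1080] at e
    omega
  set Ph := P₀.map mk with hPh
  have hidxh : Ph.index = 40 := by
    rw [hPh, Subgroup.index_map_eq _ hsurj (by rw [hker]; exact hWP₀), hidxP₀]
  have hPh9 : Nat.card Ph = 3 ^ 2 := by
    have e := Subgroup.card_mul_index Ph
    rw [hidxh, hcardq] at e
    norm_num
    omega
  have hpg : IsPGroup 3 Ph := IsPGroup.of_card hPh9
  have hidx : ¬ 3 ∣ Ph.index := by
    rw [hidxh]
    norm_num
  let S : Sylow 3 (HH w₀ ⧸ Wz) := hpg.toSylow hidx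
  have hSc : Nat.card (S : Subgroup (HH w₀ ⧸ Wz)) = 3 ^ 2 := hPh9
  have hab := IsPGroup.isMulCommutative_of_card_eq_prime_sq hSc
  have hmemh : ∀ x : HH w₀, mk x ∈ Ph → x ∈ P₀ := by
    rintro x ⟨y, hy, e⟩
    have h1 : y⁻¹ * x ∈ Wz := (hmk y x).1 e
    have e2 : x = y * (y⁻¹ * x) := by group
    rw [e2]
    exact P₀.mul_mem hy (hWP₀ h1)
  have hN : Subgroup.normalizer (S : Set (HH w₀ ⧸ Wz)) ≤ Subgroup.centralizer (S : Set (HH w₀ ⧸ Wz)) := by
    intro gh hgh
    obtain ⟨g, rfl⟩ := hsurj gh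
    have hg' : ∀ y, y ∈ Ph ↔ mk g * y * (mk g)⁻¹ ∈ Ph := Subgroup.mem_normalizer_iff.1 hgh
    have hgN : g.1 ∈ Ng3 P w₀ := by
      refine ⟨?_, g.2⟩
      show g.1 ∈ Subgroup.normalizer (((P : Subgroup G)) : Set G)
      rw [Subgroup.mem_normalizer_iff]
      intro y
      constructor
      · intro hy
        have h1 : mk ⟨y, hle hy⟩ ∈ Ph := ⟨_, Subgroup.mem_subgroupOf.2 hy, rfl⟩
        have h2 := (hg' _).1 h1
        have h3 : mk (g * ⟨y, hle hy⟩ * g⁻¹) ∈ Ph := by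
          rw [map_mul, map_mul, map_inv]
          exact h2
        exact Subgroup.mem_subgroupOf.1 (hmemh _ h3)
      · intro hy
        have hyΓ : y ∈ HH w₀ := by
          have e1 : y = g.1⁻¹ * (g.1 * y * g.1⁻¹) * g.1 := by group
          rw [e1]
          exact (HH w₀).mul_mem ((HH w₀).mul_mem ((HH w₀).inv_mem g.2) (hle hy)) g.2
        have h1 : mk (g * ⟨y, hyΓ⟩ * g⁻¹) ∈ Ph := ⟨_, Subgroup.mem_subgroupOf.2 hy, rfl⟩
        rw [map_mul, map_mul, map_inv] at h1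
        have h2 := (hg' _).2 h1
        exact Subgroup.mem_subgroupOf.1 (hmemh _ h2)
    rw [hNP] at hgN
    have hgP : g ∈ P₀ := Subgroup.mem_subgroupOf.2 hgN
    have hgS : mk g ∈ (S : Subgroup (HH w₀ ⧸ Wz)) := ⟨g, hgP, rfl⟩
    rw [Subgroup.mem_centralizer_iff]
    intro y hy
    have := hab.is_comm.comm (⟨y, hy⟩ : (S : Subgroup (HH w₀ ⧸ Wz))) ⟨mk g, hgS⟩
    exact congrArg Subtype.val this
  have hcomp := MonoidHom.ker_transferSylow_isComplement' S hN
  set φ := MonoidHom.transferSylow S hN with hφ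
  have hKc := hcomp.card_mul
  rw [hSc, hcardq] at hKc
  have hpow9 : ∀ g : HH w₀ ⧸ Wz, (φ g) ^ 9 = 1 := by
    intro g
    have := pow_card_eq_one' (x := φ g)
    rwa [hSc] at this
  have hcK : c ∈ φ.ker.comap mk := by
    rw [Subgroup.mem_comap, MonoidHom.mem_ker]
    have : mk c = 1 := by
      rw [← MonoidHom.mem_ker, hker]
      exact Subgroup.mem_zpowers c
    rw [this, map_one]
  have hK8 : ∀ g : HH w₀, g ^ 8 = 1 → g ∈ φ.ker.comap mk := by
    intro g hg
    rw [Subgroup.mem_comap, MonoidHom.mem_ker]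
    have e3 : (φ (mk g)) ^ 8 = 1 := by rw [← map_pow, ← map_pow, hg, map_one, map_one]
    have := pow_gcd_eq_one.2 ⟨hpow9 (mk g), e3⟩
    have e0 : Nat.gcd 9 8 = 1 := by norm_num
    rwa [e0, pow_one] at this
  have hno := hD.no_proper haa ha1 (φ.ker.comap mk) hcK hK8
  have htop : φ.ker.comap mk = ⊤ := Subgroup.eq_top_of_card_eq _ hno
  have htop2 : φ.ker = ⊤ := by
    rw [eq_top_iff]
    intro x _
    obtain ⟨g, rfl⟩ := hsurj x
    have : g ∈ φ.ker.comap mk := by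
      rw [htop]
      trivial
    exact this
  rw [htop2, Subgroup.card_top, hcardq] at hKc
  norm_num at hKc

/-- The order of the normalizer inside the centralizer. -/
theorem card_Ng3 (W : WZ z P w₀) : Nat.card (Ng3 P w₀) = 108 := by
  obtain ⟨i, hi, hmul⟩ := norm_count h hv₀ hn W
  have h27 : 27 ∣ Nat.card (Ng3 P w₀) := by
    have := Subgroup.card_dvd_of_le W.le_N
    rwa [card_syl3 h hv₀ hn P] at this
  obtain ⟨m, hm⟩ := h27
  rw [hm] at hmul
  have hmi : m * i = 40 := by nlinarith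
  have hile : i ≤ 40 := Nat.le_of_dvd (by norm_num) ⟨m, by rw [← hmi, mul_comm]⟩
  have h5 := no5 h hv₀ hn W
  have h27' := no27 h hv₀ hn W
  rw [hm] at h5 h27' ⊢
  generalize m = m' at *
  interval_cases i <;> omega

omit h hv₀ hn in
theorem mem_syl_of_norm (R : Sylow 3 G) {x : G} {n : ℕ} (hx : x ^ 3 ^ n = 1)
    (hN : x ∈ Subgroup.normalizer (((R : Subgroup G)) : Set G)) : x ∈ (R : Subgroup G) := by
  haveI hp3 : Fact (Nat.Prime 3) := ⟨by norm_num⟩
  have hp : IsPGroup 3 (Subgroup.zpowers x) := by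
    intro g
    obtain ⟨k, hk⟩ := Subgroup.mem_zpowers_iff.1 g.2
    refine ⟨n, ?_⟩
    apply Subtype.ext
    show (g.1) ^ 3 ^ n = 1
    rw [← hk, ← zpow_natCast, ← zpow_mul, mul_comm, zpow_mul, zpow_natCast, hx, one_zpow]
  have := hp.inf_normalizer_sylow R
  have hm : x ∈ Subgroup.zpowers x ⊓ Subgroup.normalizer (R : Set G) :=
    ⟨Subgroup.mem_zpowers x, hN⟩
  rw [this] at hm
  exact hm.2

/-- The elements of the second type in a Sylow subgroup. -/
abbrev Ts (t₀ : HH z) (P : Sylow 3 G) : Set G := {p | p ∈ (P : Subgroup G) ∧ p ≠ 1 ∧ RZ t₀.1 p}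

theorem pow27 (P : Sylow 3 G) {p : G} (hp : p ∈ (P : Subgroup G)) : p ^ 27 = 1 := by
  have := pow_card_eq_one' (x := (⟨p, hp⟩ : (P : Subgroup G)))
  rw [show Nat.card (P : Subgroup G) = 27 from card_syl3 h hv₀ hn P] at this
  exact congrArg Subtype.val this

theorem Ts_pow3 {p : G} (hp : p ∈ Ts t₀ P) : p ^ 3 = 1 := by
  obtain ⟨hpP, -, u, hu, hup⟩ := hp
  exact T_order h hu hup (pow27 h hv₀ hn P hpP) ⟨v₀, hv₀, hn⟩

theorem Ts_notZ (W : WZ z P w₀) {p : G} (hp : p ∈ Ts t₀ P) : p ∉ Subgroup.zpowers w₀ := by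
  haveI hp3 : Fact (Nat.Prime 3) := ⟨by norm_num⟩
  intro hm
  have hp3' := Ts_pow3 h hv₀ hn hp
  obtain ⟨hpP, hp1, u, hu, hup⟩ := hp
  have hoa : orderOf p = 3 := orderOf_eq_prime hp3' hp1
  have heq := zp_eq3 hoa W.ord hm
  have hwm : w₀ ∈ Subgroup.zpowers p := by
    rw [heq]
    exact Subgroup.mem_zpowers w₀
  obtain ⟨k, hk⟩ := Subgroup.mem_zpowers_iff.1 hwm
  have huw : Commute u w₀ := by
    rw [← hk]
    exact hup.zpow_right k
  obtain ⟨e, he, hew⟩ := W.ex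
  exact excl h hv₀ hn hu huw he hew W.pow3 W.ne1

theorem Ts_ge12 (W : WZ z P w₀) {p : G} (hp : p ∈ Ts t₀ P) : 12 ≤ Nat.card (Ts t₀ P) := by
  haveI hp2 : Fact (Nat.Prime 2) := ⟨Nat.prime_two⟩
  haveI hp3f : Fact (Nat.Prime 3) := ⟨by norm_num⟩
  have hpn := Ts_notZ h hv₀ hn W hp
  have hp3 := Ts_pow3 h hv₀ hn hp
  have hTs := hp
  obtain ⟨hpP, hp1, u, hu, hup⟩ := hp
  have hoa : orderOf p = 3 := orderOf_eq_prime hp3 hp1
  set X : Subgroup G := Ng3 P w₀ ⊓ Subgroup.centralizer ({p} : Set G) with hX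
  set O : Set G := {y | ∃ g ∈ Ng3 P w₀, g * p * g⁻¹ = y} with hO
  have horb := orbit_card (Ng3 P w₀) p O (fun g hg => ⟨g, hg, rfl⟩) (fun y hy => hy)
  rw [card_Ng3 h hv₀ hn W] at horb
  have hno2 : ¬ 2 ∣ Nat.card X := by
    intro hd
    obtain ⟨v, hv, hvo⟩ := cauchy_sub X 2 hd
    have hvv := sq_of_order hvo
    have hv1 : v ≠ 1 := by
      rintro rfl
      simp at hvo
    obtain ⟨e, he, hew⟩ := W.ex
    have hzv := Z_all h hv₀ hn he hew W.pow3 W.ne1 hvv hv1 (mem_HH.1 hv.1.2)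
    exact excl h hv₀ hn hu hup hzv (mem_HH.1 hv.2) hp3 hp1
  have hXd : Nat.card X ∣ 27 := by
    have h1 : Nat.card X ∣ 108 := by
      have := Subgroup.card_dvd_of_le (inf_le_left : X ≤ Ng3 P w₀)
      rwa [card_Ng3 h hv₀ hn W] at this
    have hc4 : Nat.Coprime (Nat.card X) (2 ^ 2) :=
      Nat.Coprime.pow_right 2 ((Nat.Prime.coprime_iff_not_dvd Nat.prime_two).2 hno2).symm
    apply Nat.Coprime.dvd_of_dvd_mul_right hc4
    norm_num
    exact h1
  have hXP : X ≤ (P : Subgroup G) := by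
    intro g hg
    have h27 : g ^ 27 = 1 := by
      obtain ⟨m, hm⟩ := hXd
      have := pow_card_eq_one' (x := (⟨g, hg⟩ : X))
      have h1 : g ^ Nat.card X = 1 := congrArg Subtype.val this
      rw [hm, pow_mul, h1, one_pow]
    exact mem_syl_of_norm P (n := 3) (by simpa using h27) hg.1.1
  have hPX : ∀ g ∈ (P : Subgroup G), Commute g p → g ∈ X := fun g hg hc =>
    ⟨W.le_N hg, mem_HH.2 hc⟩
  have hwX : w₀ ∈ X := hPX w₀ W.mem (W.cen p hpP).symm
  have hpX : p ∈ X := hPX p hpP (Commute.refl p)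
  have hwp : w₀ ∉ Subgroup.zpowers p := by
    intro hm
    have heq := zp_eq3 W.ord hoa hm
    apply hpn
    rw [heq]
    exact Subgroup.mem_zpowers p
  have hgt : 3 < Nat.card X := by
    by_contra hle
    push Not at hle
    have heq := Subgroup.eq_of_le_of_card_ge (Subgroup.zpowers_le.2 hpX) (by rw [Nat.card_zpowers, hoa]; exact hle)
    rw [← heq] at hwX
    exact hwp hwX
  have hne27 : Nat.card X ≠ 27 := by
    intro e27
    have heq : X = (P : Subgroup G) := Subgroup.eq_of_le_of_card_ge hXP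
      (by rw [e27, show Nat.card (P : Subgroup G) = 27 from card_syl3 h hv₀ hn P])
    apply hpn
    apply cen_unique h hv₀ hn P W.mem hpP W.ord W.cen
    intro x hx
    rw [← heq] at hx
    exact mem_HH.1 hx.2
  have hX9 : Nat.card X = 9 := by
    rcases dvd27 hXd with e | e | e | e <;> omega
  have hO12 : Nat.card O = 12 := by
    rw [hX9] at horb
    omega
  have hsub : O ⊆ Ts t₀ P := by
    rintro _ ⟨g, hg, rfl⟩
    refine ⟨(Subgroup.mem_normalizer_iff.1 hg.1 p).1 hpP, ?_, RZ_conj ⟨u, hu, hup⟩ g⟩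
    intro e
    apply hp1
    have e2 : p = g⁻¹ * (g * p * g⁻¹) * g := by group
    rw [e2, e]
    group
  rw [Nat.card_coe_set_eq] at hO12 ⊢
  rw [← hO12]
  exact Set.ncard_le_ncard hsub (Set.toFinite _)

theorem Ts_card (W : WZ z P w₀) : Nat.card (Ts t₀ P) = 24 := by
  classical
  haveI := Fintype.ofFinite G
  haveI hp3f : Fact (Nat.Prime 3) := ⟨by norm_num⟩
  haveI hp2f : Fact (Nat.Prime 2) := ⟨Nat.prime_two⟩
  haveI hPf : Fintype (P : Subgroup G) := Fintype.ofFinite _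
  have hdvd := sum_formula (P : Subgroup G) t₀.1 2520 3 (RZ t₀.1) (card_Tc h) (by
      rintro p hp1 ⟨u, hu, hup⟩
      have hp1' : p.1 ≠ 1 := fun e => hp1 (Subtype.ext e)
      have hp3 : p.1 ^ 3 = 1 := T_order h hu hup (pow27 h hv₀ hn P p.2) ⟨v₀, hv₀, hn⟩
      exact (T_count h hv₀ hn hu hup hp3 hp1').1) (by
      intro p hp1 hnR
      have : IsEmpty (FF t₀.1 p.1) := ⟨fun u => hnR ⟨u.1, u.2.1, u.2.2⟩⟩
      exact Nat.card_of_isEmpty)
  rw [show Nat.card (P : Subgroup G) = 27 from card_syl3 h hv₀ hn P] at hdvd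
  have hfilter : (Finset.univ.filter (fun p : (P : Subgroup G) => p ≠ 1 ∧ RZ t₀.1 p.1)).card = Nat.card (Ts t₀ P) := by
    rw [← Fintype.card_subtype, ← Nat.card_eq_fintype_card]
    apply Nat.card_congr
    exact ⟨fun p => ⟨p.1.1, p.1.2, fun e => p.2.1 (Subtype.ext e), p.2.2⟩,
      fun p => ⟨⟨p.1, p.2.1⟩, fun e => p.2.2.1 (congrArg Subtype.val e), p.2.2.2⟩, fun _ => rfl, fun _ => rfl⟩
  rw [hfilter] at hdvd
  -- the upper bound
  have hsub : Ts t₀ P ⊆ ((P : Subgroup G) : Set G) \ ((Subgroup.zpowers w₀ : Subgroup G) : Set G) :=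
    fun p hp => ⟨hp.1, Ts_notZ h hv₀ hn W hp⟩
  have hdiff : (((P : Subgroup G) : Set G) \ ((Subgroup.zpowers w₀ : Subgroup G) : Set G)).ncard = 24 := by
    rw [Set.ncard_diff (Subgroup.zpowers_le.2 W.mem) (Set.toFinite _),
      ← Nat.card_coe_set_eq, ← Nat.card_coe_set_eq]
    have e2 : Nat.card ((P : Subgroup G) : Set G) = 27 := card_syl3 h hv₀ hn P
    have e3 : Nat.card ((Subgroup.zpowers w₀ : Subgroup G) : Set G) = 3 := by
      show Nat.card (Subgroup.zpowers w₀) = 3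
      rw [Nat.card_zpowers, W.ord]
    rw [e2, e3]
  have hle24 : Nat.card (Ts t₀ P) ≤ 24 := by
    rw [Nat.card_coe_set_eq, ← hdiff]
    exact Set.ncard_le_ncard hsub (Set.toFinite _)
  -- nonempty
  have hne : Nat.card (Ts t₀ P) ≠ 0 := by
    intro e0
    rw [e0] at hdvd
    norm_num at hdvd
  have hnonempty : Nonempty (Ts t₀ P) := by
    by_contra he
    rw [not_nonempty_iff] at he
    exact hne Nat.card_of_isEmpty
  obtain ⟨⟨p₀, hp₀⟩⟩ := hnonempty
  have hge := Ts_ge12 h hv₀ hn W hp₀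
  -- parity
  have hinvmem : ∀ p ∈ Ts t₀ P, p⁻¹ ∈ Ts t₀ P := by
    rintro p ⟨h1', h2', h3'⟩
    refine ⟨(P : Subgroup G).inv_mem h1', inv_ne_one.2 h2', RZ_pow h3' (Subgroup.inv_mem _ (Subgroup.mem_zpowers p))⟩
  let f : Function.End (Ts t₀ P) := fun p => ⟨p.1⁻¹, hinvmem p.1 p.2⟩
  have hf : f ^ 2 ^ 1 = 1 := by
    funext x
    apply Subtype.ext
    show (x.1⁻¹)⁻¹ = x.1
    simp
  have m3 := card_mod_fix 2 1 f hf
  have hnofix : IsEmpty {x // f x = x} := by
    refine ⟨fun x => ?_⟩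
    have e3 : x.1.1⁻¹ = x.1.1 := congrArg Subtype.val x.2
    have h3 := Ts_pow3 h hv₀ hn x.1.2
    have h2 : x.1.1 * x.1.1 = 1 := by
      nth_rewrite 1 [← e3]
      simp
    exact x.1.2.2.1 (cent_sq3 h3 h2)
  have hz0 : Nat.card {x // f x = x} = 0 := Nat.card_of_isEmpty
  rw [hz0] at m3
  unfold Nat.ModEq at m3
  obtain ⟨k, hk⟩ := hdvd
  omega

theorem Ts_all (W : WZ z P w₀) {p : G} (hp : p ∈ (P : Subgroup G)) (hn' : p ∉ Subgroup.zpowers w₀) :
    RZ t₀.1 p := by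
  have hsub : Ts t₀ P ⊆ ((P : Subgroup G) : Set G) \ ((Subgroup.zpowers w₀ : Subgroup G) : Set G) :=
    fun p hp => ⟨hp.1, Ts_notZ h hv₀ hn W hp⟩
  have hdiff : (((P : Subgroup G) : Set G) \ ((Subgroup.zpowers w₀ : Subgroup G) : Set G)).ncard = 24 := by
    rw [Set.ncard_diff (Subgroup.zpowers_le.2 W.mem) (Set.toFinite _),
      ← Nat.card_coe_set_eq, ← Nat.card_coe_set_eq]
    have e2 : Nat.card ((P : Subgroup G) : Set G) = 27 := card_syl3 h hv₀ hn P
    have e3 : Nat.card ((Subgroup.zpowers w₀ : Subgroup G) : Set G) = 3 := by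
      show Nat.card (Subgroup.zpowers w₀) = 3
      rw [Nat.card_zpowers, W.ord]
    rw [e2, e3]
  have heq := Set.eq_of_subset_of_ncard_le hsub (by
    rw [hdiff, ← Nat.card_coe_set_eq, Ts_card h hv₀ hn W])
  have hm : p ∈ ((P : Subgroup G) : Set G) \ ((Subgroup.zpowers w₀ : Subgroup G) : Set G) := ⟨hp, hn'⟩
  rw [← heq] at hm
  exact hm.2.2

/-- The main theorem on Sylow 3-subgroups. -/
theorem main_three (P : Sylow 3 G) : Cfsg.IsExtraspecial 3 (P : Subgroup G) ∧ Nat.card (P : Subgroup G) = 27 ∧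
    Nat.card (Subgroup.normalizer ((P : Subgroup G) : Set G)) = 216 ∧
    ∃ a b : G, orderOf a = 3 ∧ orderOf b = 3 ∧ ¬ IsConj a b ∧ ∀ c : G, orderOf c = 3 → IsConj c a ∨ IsConj c b := by
  haveI hp3 : Fact (Nat.Prime 3) := ⟨by norm_num⟩
  obtain ⟨w₀, hw₀, hw₀o, hw₀c, e, he, hew⟩ := syl_central h hv₀ hn P
  have W : WZ z P w₀ := ⟨hw₀, hw₀o, hw₀c, e, he, hew⟩
  have hP27 : Nat.card (P : Subgroup G) = 27 := card_syl3 h hv₀ hn P
  -- extraspecial
  have hextra : Cfsg.IsExtraspecial 3 (P : Subgroup G) := by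
    have hnab := syl_nonab h hv₀ hn P
    push Not at hnab
    obtain ⟨x, hx, y, hy, hxy⟩ := hnab
    apply extra27 hP27 (a := ⟨x, hx⟩) (b := ⟨y, hy⟩)
    intro e0
    exact hxy (congrArg Subtype.val e0)
  -- the normalizer
  set S := Subgroup.normalizer ((P : Subgroup G) : Set G) with hS
  set O : Set G := {y | ∃ g ∈ S, g * w₀ * g⁻¹ = y} with hO
  have horb := orbit_card S w₀ O (fun g hg => ⟨g, hg, rfl⟩) (fun y hy => hy)
  have hNg : Nat.card ↥(S ⊓ Subgroup.centralizer ({w₀} : Set G)) = 108 := card_Ng3 h hv₀ hn W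
  rw [hNg] at horb
  have hw3 := W.pow3
  have hw1 := W.ne1
  have hOsub : O ⊆ ({w₀, w₀⁻¹} : Set G) := by
    rintro _ ⟨g, hg, rfl⟩
    have hgP : g * w₀ * g⁻¹ ∈ (P : Subgroup G) := (Subgroup.mem_normalizer_iff.1 hg w₀).1 hw₀
    have hcen : ∀ x ∈ (P : Subgroup G), Commute x (g * w₀ * g⁻¹) := by
      intro x hx
      have h1 : g⁻¹ * x * g ∈ (P : Subgroup G) := by
        rw [Subgroup.mem_normalizer_iff.1 hg]
        have e1 : g * (g⁻¹ * x * g) * g⁻¹ = x := by group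
        rw [e1]
        exact hx
      have h2 := cconj (hw₀c _ h1) g
      have e1 : g * (g⁻¹ * x * g) * g⁻¹ = x := by group
      rwa [e1] at h2
    rcases mem_zp3 hw3 (cen_unique h hv₀ hn P hw₀ hgP hw₀o hw₀c hcen) with e1 | e1 | e1
    · exfalso
      apply hw1
      have e2 : w₀ = g⁻¹ * (g * w₀ * g⁻¹) * g := by group
      rw [e2, e1]
      group
    · exact Or.inl e1
    · exact Or.inr e1
  have hne : w₀ ≠ w₀⁻¹ := by
    intro e1
    have e2 : w₀ * w₀ = 1 := by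
      nth_rewrite 2 [e1]
      simp
    exact hw1 (cent_sq3 hw3 e2)
  have hOc : Nat.card O ≤ 2 := by
    rw [Nat.card_coe_set_eq]
    have := Set.ncard_le_ncard hOsub (Set.toFinite _)
    rwa [Set.ncard_pair hne] at this
  have hi1 : Nat.card (Sylow 3 G) % 3 = 1 := card_sylow_modEq_one 3 G
  have hi2 : Nat.card (Sylow 3 G) = S.index := Sylow.card_eq_index_normalizer P
  rw [hi2] at hi1
  have hmul := Subgroup.card_mul_index S
  rw [← horb, h.card_G] at hmul
  have hO2 : Nat.card O = 2 := by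
    have hOpos : 0 < Nat.card O := by
      haveI : Nonempty O := ⟨⟨w₀, 1, Subgroup.one_mem _, by simp⟩⟩
      exact Nat.card_pos
    generalize S.index = i at *
    generalize Nat.card O = o at *
    interval_cases o
    · omega
    · rfl
  have hS216 : Nat.card S = 216 := by
    rw [← horb, hO2]
  have hOeq : O = ({w₀, w₀⁻¹} : Set G) := by
    apply Set.eq_of_subset_of_ncard_le hOsub
    rw [Set.ncard_pair hne, ← Nat.card_coe_set_eq, hO2]
  have hreal : IsConj w₀ w₀⁻¹ := by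
    have hm : w₀⁻¹ ∈ O := by
      rw [hOeq]
      exact Or.inr rfl
    obtain ⟨g, -, hg⟩ := hm
    exact isConj_iff.2 ⟨g, hg⟩
  refine ⟨hextra, hP27, hS216, ?_⟩
  -- the classes
  obtain ⟨p, hpP, hpn⟩ : ∃ p ∈ ((P : Subgroup G) : Set G), p ∉ ((Subgroup.zpowers w₀ : Subgroup G) : Set G) := by
    apply Set.exists_mem_notMem_of_ncard_lt_ncard _ (Set.toFinite _)
    rw [← Nat.card_coe_set_eq, ← Nat.card_coe_set_eq]
    have e2 : Nat.card ((P : Subgroup G) : Set G) = 27 := hP27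
    have e3 : Nat.card ((Subgroup.zpowers w₀ : Subgroup G) : Set G) = 3 := by
      show Nat.card (Subgroup.zpowers w₀) = 3
      rw [Nat.card_zpowers, W.ord]
    rw [e2, e3]
    norm_num
  have hpR := Ts_all h hv₀ hn W hpP hpn
  have hp1 : p ≠ 1 := by
    rintro rfl
    exact hpn (Subgroup.one_mem _)
  obtain ⟨u, hu, hup⟩ := id hpR
  have hpp3 : p ^ 3 = 1 := T_order h hu hup (pow27 h hv₀ hn P hpP) ⟨v₀, hv₀, hn⟩
  have hpo : orderOf p = 3 := orderOf_eq_prime hpp3 hp1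
  refine ⟨w₀, p, hw₀o, hpo, ?_, ?_⟩
  · intro hc
    obtain ⟨g, rfl⟩ := isConj_iff.1 hc
    exact excl h hv₀ hn hu hup (he.trans (isConj_iff.2 ⟨g, rfl⟩)) (cconj hew g) hpp3 hp1
  · intro c hco
    obtain ⟨P', hP'⟩ := exists_syl_mem 3 hco
    obtain ⟨g, hg1, -⟩ := syl_conj_ex 3 P' P
    have hcP := hg1 c hP'
    have hc3 : c ^ 3 = 1 := by
      rw [← hco]
      exact pow_orderOf_eq_one c
    have hc1 : c ≠ 1 := by
      rintro rfl
      simp at hco
    have hcc : IsConj c (g * c * g⁻¹) := isConj_iff.2 ⟨g, rfl⟩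
    have hc'1 : g * c * g⁻¹ ≠ 1 := by
      intro e1
      apply hc1
      have e2 : c = g⁻¹ * (g * c * g⁻¹) * g := by group
      rw [e2, e1]
      group
    have hc'3 : (g * c * g⁻¹) ^ 3 = 1 := by
      rw [conj_pow, hc3]
      group
    by_cases hcz : g * c * g⁻¹ ∈ Subgroup.zpowers w₀
    · left
      rcases mem_zp3 hw3 hcz with e1 | e1 | e1
      · exact absurd e1 hc'1
      · rw [e1] at hcc
        exact hcc
      · rw [e1] at hcc
        exact hcc.trans hreal.symm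
    · right
      obtain ⟨u', hu', hup'⟩ := Ts_all h hv₀ hn W hcP hcz
      exact hcc.trans (T_conj h hv₀ hn hu' hup' hc'3 hc'1 hu hup hpp3 hp1)

end Three

end Cfsg.Agent.Lib.HJSevenE
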