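import Mathlib
import Cfsg.Agent.Lib.Hall
import Cfsg.Agent.Lib.BurnsidePQ
import Cfsg.Agent.S0007

/-!
# Converse of Hall's theorem, factorizations.
-/

set_option autoImplicit false

open scoped Pointwise
open Cfsg.Agent.Lib.PCore Cfsg.Agent.Lib.Coprime Cfsg.Agent.Lib.Hall

namespace Cfsg.Agent.Lib.HallConverse

universe u

variable {G : Type u} [Group G]

/-- The normal closure of a `q`-subgroup `N` normalized by `H₁` lies in `H₂` if `G = H₁ H₂` and
`q` does not divide `|G : H₂|`. -/
theorem normalClosure_le_of_factorization [Finite G] {q : ℕ} [Fact q.Prime] {H₁ H₂ N : Subgroup G}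
    (hN : IsPGroup q N) (hN₁ : H₁ ≤ Subgroup.normalizer (N : Set G)) (hd : ¬ q ∣ H₂.index)
    (h12 : ∀ g : G, ∃ x ∈ H₁, ∃ y ∈ H₂, g = x * y) :
    Subgroup.normalClosure (N : Set G) ≤ H₂ := by
  obtain ⟨g, hg⟩ := exists_conj_le_of_not_dvd_index hN hd
  obtain ⟨x, hx, y, hy, rfl⟩ := h12 g
  -- `N ≤ H₂`
  have hNH₂ : N ≤ H₂ := by
    intro n hn
    have h1 : x * n * x⁻¹ ∈ N := Subgroup.le_normalizer_iff.mp hN₁ x hx n hn
    have h2 := hg h1
    rw [mem_conj_smul_iff] at h2
    have h3 : (x * y)⁻¹ * (x * n * x⁻¹) * (x * y) = y⁻¹ * n * y := by group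
    rw [h3] at h2
    have h4 : n = y * (y⁻¹ * n * y) * y⁻¹ := by group
    rw [h4]
    exact H₂.mul_mem (H₂.mul_mem hy h2) (H₂.inv_mem hy)
  rw [Subgroup.normalClosure, Subgroup.closure_le]
  intro z hz
  rw [Group.mem_conjugatesOfSet_iff] at hz
  obtain ⟨n, hn, hconj⟩ := hz
  obtain ⟨c, rfl⟩ := isConj_iff.mp hconj
  -- write `c⁻¹ = x y`
  obtain ⟨x', hx', y', hy', hxy⟩ := h12 c⁻¹
  have hc : c = y'⁻¹ * x'⁻¹ := by
    have := congrArg (·⁻¹) hxy
    simpa using this
  have h1 : x'⁻¹ * n * x'⁻¹⁻¹ ∈ N := Subgroup.le_normalizer_iff.mp hN₁ x'⁻¹ (H₁.inv_mem hx') n hn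
  have h2 : c * n * c⁻¹ = y'⁻¹ * (x'⁻¹ * n * x'⁻¹⁻¹) * y' := by rw [hc]; group
  show c * n * c⁻¹ ∈ H₂
  rw [h2]
  exact H₂.mul_mem (H₂.mul_mem (H₂.inv_mem hy') (hNH₂ h1)) hy'

/-- The `q`-core of a subgroup, mapped to the ambient group, is normalized by the subgroup. -/
theorem le_normalizer_map_pCore (H : Subgroup G) (q : ℕ) :
    H ≤ Subgroup.normalizer (((pCore q H).map H.subtype : Subgroup G) : Set G) := by
  have hn : (((pCore q H).map H.subtype).subgroupOf H).Normal := by
    have h1 : ((pCore q H).map H.subtype).subgroupOf H = pCore q H :=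
      Subgroup.comap_map_eq_self_of_injective H.subtype_injective _
    rw [h1]
    infer_instance
  exact (Subgroup.normal_subgroupOf_iff_le_normalizer (Subgroup.map_subtype_le _)).mp hn

/-- Pass a factorization to a quotient. -/
theorem factorization_map {G' : Type*} [Group G'] (f : G →* G') (hf : Function.Surjective f)
    {A B : Subgroup G} (h : ∀ g : G, ∃ x ∈ A, ∃ y ∈ B, g = x * y) :
    ∀ g : G', ∃ x ∈ A.map f, ∃ y ∈ B.map f, g = x * y := by
  intro g
  obtain ⟨g, rfl⟩ := hf g
  obtain ⟨x, hx, y, hy, rfl⟩ := h g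
  exact ⟨f x, Subgroup.mem_map_of_mem f hx, f y, Subgroup.mem_map_of_mem f hy, map_mul f x y⟩

/-- **Solvable factorizations** (S0019). -/
theorem isSolvable_of_three_factorizations : ∀ (n : ℕ) (G : Type u) [Group G] [Finite G],
    Nat.card G = n → ∀ (H₁ H₂ H₃ : Subgroup G), Group.IsSolvable H₁ → Group.IsSolvable H₂ →
    Group.IsSolvable H₃ → (∀ g : G, ∃ x ∈ H₁, ∃ y ∈ H₂, g = x * y) →
    (∀ g : G, ∃ x ∈ H₁, ∃ y ∈ H₃, g = x * y) → H₂.index.Coprime H₃.index →
    Group.IsSolvable G := by
  intro n
  induction n using Nat.strong_induction_on with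
  | _ n ih =>
  intro G _ _ hn H₁ H₂ H₃ h₁ h₂ h₃ h12 h13 hcop
  by_cases hbot : H₁ = ⊥
  · -- `G = H₂`
    have htop : H₂ = ⊤ := by
      rw [eq_top_iff]
      intro g _
      obtain ⟨x, hx, y, hy, rfl⟩ := h12 g
      rw [hbot, Subgroup.mem_bot] at hx
      rw [hx, one_mul]
      exact hy
    rw [htop] at h₂
    let e : (⊤ : Subgroup G) ≃* G := Subgroup.topEquiv
    exact Group.isSolvable_of_surjective (f := e.toMonoidHom) e.surjective
  have hnt : Nontrivial H₁ := (Subgroup.nontrivial_iff_ne_bot H₁).mpr hbot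
  obtain ⟨q, hq, hQne⟩ := exists_pCore_ne_bot (G := H₁)
  have : Fact q.Prime := ⟨hq⟩
  set N := (pCore q H₁).map H₁.subtype with hNdef
  have hNp : IsPGroup q N := (isPGroup_pCore (G := H₁) q).map _
  have hNne : N ≠ ⊥ := by
    intro h
    apply hQne
    exact (Subgroup.map_eq_bot_iff_of_injective _ H₁.subtype_injective).mp h
  have hNnorm := le_normalizer_map_pCore H₁ q
  rw [← hNdef] at hNnorm
  -- `M` is a solvable normal subgroup
  have hMsolv : ∃ M : Subgroup G, M.Normal ∧ M ≠ ⊥ ∧ Group.IsSolvable M := by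
    refine ⟨Subgroup.normalClosure (N : Set G), inferInstance, ?_, ?_⟩
    · intro h
      apply hNne
      rw [eq_bot_iff, ← h]
      exact Subgroup.le_normalClosure
    · by_cases hd : q ∣ H₂.index
      · have hd3 : ¬ q ∣ H₃.index := by
          intro h
          have := Nat.Coprime.eq_one_of_dvd (Nat.Coprime.coprime_dvd_left hd hcop) h
          exact hq.one_lt.ne' this
        have hle := normalClosure_le_of_factorization hNp hNnorm hd3 h13
        exact isSolvable_of_le hle
      · have hle := normalClosure_le_of_factorization hNp hNnorm hd h12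
        exact isSolvable_of_le hle
  obtain ⟨M, hMn, hMne, hMs⟩ := hMsolv
  let π := QuotientGroup.mk' M
  have hsurj : Function.Surjective π := QuotientGroup.mk'_surjective M
  have hlt : Nat.card (G ⧸ M) < n := by rw [← hn]; exact card_quotient_lt hMne
  have hquot := ih _ hlt (G ⧸ M) rfl (H₁.map π) (H₂.map π) (H₃.map π)
    (isSolvable_map π H₁) (isSolvable_map π H₂) (isSolvable_map π H₃)
    (factorization_map π hsurj h12) (factorization_map π hsurj h13)
    (Nat.Coprime.coprime_dvd_left (Subgroup.index_map_dvd H₂ hsurj)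
      (Nat.Coprime.coprime_dvd_right (Subgroup.index_map_dvd H₃ hsurj) hcop))
  exact (Group.isSolvable_iff_subgroup_quotient M).mpr ⟨hMs, hquot⟩

theorem factorization_pow_mul_of_not_dvd {r e c : ℕ} (hr : r.Prime) (hc : ¬ r ∣ c) (hc0 : c ≠ 0) :
    (r ^ e * c).factorization r = e := by
  rw [Nat.factorization_mul (pow_ne_zero _ hr.ne_zero) hc0, Finsupp.add_apply, hr.factorization_pow,
    Finsupp.single_eq_same, Nat.factorization_eq_zero_of_not_dvd hc, add_zero]

theorem not_dvd_card_of_index_eq [Finite G] {H : Subgroup G} {r : ℕ} (hr : r.Prime)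
    (hH : H.index = r ^ (Nat.card G).factorization r) : ¬ r ∣ Nat.card H := by
  rintro ⟨c, hc⟩
  have h1 := Subgroup.index_mul_card H
  rw [hH, hc, ← mul_assoc, ← pow_succ] at h1
  exact Nat.pow_succ_factorization_not_dvd Nat.card_pos.ne' hr ⟨c, h1.symm⟩

/-- The order of a group, in terms of its prime factors. -/
theorem prod_primeFactors_pow (n : ℕ) (hn : n ≠ 0) :
    ∏ q ∈ n.primeFactors, q ^ n.factorization q = n := by
  have := Nat.prod_factorization_pow_eq_self hn
  rwa [Finsupp.prod, Nat.support_factorization] at this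

/-- **Converse of Hall's theorem** (S0006). -/
theorem isSolvable_of_hall_complements : ∀ (n : ℕ) (G : Type u) [Group G] [Finite G],
    Nat.card G = n →
    (∀ p : ℕ, p.Prime → ∃ H : Subgroup G, H.index = p ^ (Nat.card G).factorization p) →
    Group.IsSolvable G := by
  intro n
  induction n using Nat.strong_induction_on with
  | _ n ih =>
  intro G _ _ hn h
  have hGpos : Nat.card G ≠ 0 := Nat.card_pos.ne'
  set P := (Nat.card G).primeFactors with hP
  by_cases hcard : P.card ≤ 2
  · -- Burnside
    have hprod := prod_primeFactors_pow (Nat.card G) hGpos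
    rw [← hP] at hprod
    have hmem : ∀ q ∈ P, q.Prime := fun q hq => Nat.prime_of_mem_primeFactors hq
    have hb : ∃ p q : ℕ, p.Prime ∧ q.Prime ∧ ∃ a b, Nat.card G = p ^ a * q ^ b := by
      rcases Nat.lt_or_ge P.card 1 with h0 | h1
      · have h00 : P = ∅ := Finset.card_eq_zero.mp (by omega)
        rw [h00, Finset.prod_empty] at hprod
        exact ⟨2, 2, Nat.prime_two, Nat.prime_two, 0, 0, by
          rw [pow_zero, mul_one]; exact hprod.symm⟩
      rcases Nat.lt_or_ge P.card 2 with h1' | h2
      · obtain ⟨p, hp⟩ := Finset.card_eq_one.mp (by omega : P.card = 1)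
        rw [hp, Finset.prod_singleton] at hprod
        exact ⟨p, p, hmem p (by simp [hp]), hmem p (by simp [hp]), (Nat.card G).factorization p, 0, by
          rw [pow_zero, mul_one]; exact hprod.symm⟩
      · obtain ⟨p, q, hpq, hPeq⟩ := Finset.card_eq_two.mp (by omega : P.card = 2)
        rw [hPeq, Finset.prod_pair hpq] at hprod
        exact ⟨p, q, hmem p (by simp [hPeq]), hmem q (by simp [hPeq]), _, _, hprod.symm⟩
    obtain ⟨p, q, hp, hq, a, b, hab⟩ := hb
    exact Cfsg.Agent.Lib.BurnsidePQ.isSolvable_of_card_eq p q hp hq _ G rfl ⟨a, b, hab⟩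
  push Not at hcard
  -- any Hall complement is solvable
  have hHall : ∀ p : ℕ, p.Prime → p ∣ Nat.card G → ∀ H : Subgroup G,
      H.index = p ^ (Nat.card G).factorization p → Group.IsSolvable H := by
    intro p hp hpd H hH
    have hidxH := Subgroup.index_mul_card H
    have hpnd := not_dvd_card_of_index_eq hp hH
    have hlt : Nat.card H < n := by
      rw [← hn, ← hidxH, hH]
      have h1 : 0 < (Nat.card G).factorization p := hp.factorization_pos_of_dvd hGpos hpd
      have h2 : 1 < p ^ (Nat.card G).factorization p := Nat.one_lt_pow h1.ne' hp.one_lt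
      have h3 : 0 < Nat.card H := Nat.card_pos
      nlinarith
    refine ih _ hlt H rfl ?_
    intro t ht
    by_cases htp : t = p
    · subst htp
      refine ⟨⊤, ?_⟩
      rw [Subgroup.index_top, Nat.factorization_eq_zero_of_not_dvd hpnd, pow_zero]
    · obtain ⟨Ht, hHt⟩ := h t ht
      refine ⟨Ht.subgroupOf H, ?_⟩
      have hcop : H.index.Coprime Ht.index := by
        rw [hH, hHt]
        exact Nat.Coprime.pow _ _ ((Nat.coprime_primes hp ht).mpr (Ne.symm htp))
      have h1 := (Cfsg.Agent.S0007.result H Ht hcop).1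
      have h2 : (H ⊓ Ht).relIndex H * H.index = (H ⊓ Ht).index :=
        Subgroup.relIndex_mul_index inf_le_left
      rw [Subgroup.inf_relIndex_left, h1, mul_comm] at h2
      have h3 : Ht.relIndex H = Ht.index :=
        Nat.eq_of_mul_eq_mul_left (Nat.pos_of_ne_zero Subgroup.index_ne_zero_of_finite) h2
      have h4 : (Ht.subgroupOf H).index = Ht.index := h3
      rw [h4, hHt]
      congr 1
      -- `v_t |G| = v_t |H|`
      have h5 : Nat.card G = p ^ (Nat.card G).factorization p * Nat.card H := by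
        conv_lhs => rw [← hidxH, hH]
      have htne : ¬ t ∣ p ^ (Nat.card G).factorization p := by
        intro hdvd
        have := ht.dvd_of_dvd_pow hdvd
        exact htp ((Nat.prime_dvd_prime_iff_eq ht hp).mp this)
      have h6 : (Nat.card G).factorization t =
          (p ^ (Nat.card G).factorization p * Nat.card H).factorization t := by rw [← h5]
      rw [h6, Nat.factorization_mul (pow_ne_zero _ hp.ne_zero) Nat.card_pos.ne', Finsupp.add_apply,
        Nat.factorization_eq_zero_of_not_dvd htne, zero_add]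
  -- pick `p` and its complement
  obtain ⟨p, hpP⟩ : P.Nonempty := Finset.card_pos.mp (by omega)
  have hp : p.Prime := Nat.prime_of_mem_primeFactors hpP
  have hpd : p ∣ Nat.card G := Nat.dvd_of_mem_primeFactors hpP
  have : Fact p.Prime := ⟨hp⟩
  obtain ⟨H, hH⟩ := h p hp
  have hsH := hHall p hp hpd H hH
  have hG_eq : Nat.card G = p ^ (Nat.card G).factorization p * Nat.card H := by
    conv_lhs => rw [← Subgroup.index_mul_card H, hH]
  have hpnd := not_dvd_card_of_index_eq hp hH
  -- `H` is nontrivial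
  have hnt : Nontrivial H := by
    rw [← Finite.one_lt_card_iff_nontrivial]
    by_contra hc
    have h1 : Nat.card H = 1 := by
      have : 0 < Nat.card H := Nat.card_pos
      omega
    rw [h1, mul_one] at hG_eq
    obtain ⟨r, hr, hrp⟩ : ∃ r ∈ P, r ≠ p := by
      by_contra hall
      push Not at hall
      have : P ⊆ {p} := fun r hr => by simp [hall r hr]
      have := Finset.card_le_card this
      simp at this
      omega
    have hrd : r ∣ Nat.card G := Nat.dvd_of_mem_primeFactors hr
    rw [hG_eq] at hrd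
    have hrprime : r.Prime := Nat.prime_of_mem_primeFactors hr
    have := hrprime.dvd_of_dvd_pow hrd
    exact hrp ((Nat.prime_dvd_prime_iff_eq hrprime hp).mp this)
  obtain ⟨t, ht, hQne⟩ := exists_pCore_ne_bot (G := H)
  have : Fact t.Prime := ⟨ht⟩
  set N := (pCore t H).map H.subtype with hNdef
  have hNp : IsPGroup t N := (isPGroup_pCore (G := H) t).map _
  have hNne : N ≠ ⊥ := by
    intro h
    apply hQne
    exact (Subgroup.map_eq_bot_iff_of_injective _ H.subtype_injective).mp h
  have hNnorm := le_normalizer_map_pCore H t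
  rw [← hNdef] at hNnorm
  -- a third prime
  obtain ⟨s, hsP, hsnot⟩ : ∃ s ∈ P, s ∉ ({p, t} : Finset ℕ) := by
    have hlt : ({p, t} : Finset ℕ).card < P.card :=
      lt_of_le_of_lt (Finset.card_le_two) hcard
    obtain ⟨s, hs, hs2⟩ := Finset.exists_mem_notMem_of_card_lt_card hlt
    exact ⟨s, hs, hs2⟩
  have hs : s.Prime := Nat.prime_of_mem_primeFactors hsP
  have hsd : s ∣ Nat.card G := Nat.dvd_of_mem_primeFactors hsP
  have hsp : s ≠ p := fun h => hsnot (by simp [h])
  have hst : s ≠ t := fun h => hsnot (by simp [h])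
  obtain ⟨K, hK⟩ := h s hs
  have hsK := hHall s hs hsd K hK
  have hcopHK : H.index.Coprime K.index := by
    rw [hH, hK]
    exact Nat.Coprime.pow _ _ ((Nat.coprime_primes hp hs).mpr (Ne.symm hsp))
  have hfact := (Cfsg.Agent.S0007.result H K hcopHK).2
  have htK : ¬ t ∣ K.index := by
    rw [hK]
    intro hdvd
    have := ht.dvd_of_dvd_pow hdvd
    exact hst ((Nat.prime_dvd_prime_iff_eq ht hs).mp this).symm
  have hle := normalClosure_le_of_factorization hNp hNnorm htK hfact
  set M := Subgroup.normalClosure (N : Set G) with hMdef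
  have hMne : M ≠ ⊥ := by
    intro h0
    apply hNne
    rw [eq_bot_iff, ← h0]
    exact Subgroup.le_normalClosure
  have hMs : Group.IsSolvable M := isSolvable_of_le hle
  have hMn : M.Normal := inferInstance
  let π := QuotientGroup.mk' M
  have hsurj : Function.Surjective π := QuotientGroup.mk'_surjective M
  have hlt : Nat.card (G ⧸ M) < n := by rw [← hn]; exact card_quotient_lt hMne
  have hquot : Group.IsSolvable (G ⧸ M) := by
    refine ih _ hlt (G ⧸ M) rfl ?_
    intro r hr
    obtain ⟨Hr, hHr⟩ := h r hr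
    refine ⟨Hr.map π, ?_⟩
    have h1 : (Hr.map π).index ∣ r ^ (Nat.card G).factorization r := by
      rw [← hHr]
      exact Subgroup.index_map_dvd Hr hsurj
    obtain ⟨e, -, he⟩ := (Nat.dvd_prime_pow hr).mp h1
    have h2 : ¬ r ∣ Nat.card (Hr.map π) := fun hd =>
      not_dvd_card_of_index_eq hr hHr (hd.trans (Subgroup.card_map_dvd Hr π))
    have h3 := Subgroup.index_mul_card (Hr.map π)
    rw [he]
    congr 1
    rw [← h3, he, factorization_pow_mul_of_not_dvd hr h2 Nat.card_pos.ne']
  exact (Group.isSolvable_iff_subgroup_quotient M).mpr ⟨hMs, hquot⟩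

end Cfsg.Agent.Lib.HallConverse
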