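import Mathlib
import Cfsg.Agent.Lib.PermChain12

set_option autoImplicit false

/-!
# Isomorphisms from tables

Two groups with generators `g i`, `m i`, whose elements are listed by a spanning tree of the same left Cayley graph, are
isomorphic as soon as the left multiplication by the generators is given by the same table on both sides.
-/

namespace Cfsg.Agent.Lib.TableIso

open Cfsg.Agent.Lib.PermChain12

/-- A sorted listing gives injectivity of a key. -/
theorem inj_of_sorted {N : ℕ} {code so : ℕ → ℕ} (h1 : ∀ j, j < N → so j < N)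
    (h2 : ∀ j, j + 1 < N → code (so j) < code (so (j + 1))) {a b : ℕ} (ha : a < N) (hb : b < N)
    (h : code a = code b) : a = b := by
  have hlt : ∀ i j, i < j → j < N → code (so i) < code (so j) := by
    intro i j hij
    induction j, hij using Nat.le_induction with
    | base =>
      intro hj
      exact h2 i hj
    | succ j hj ih =>
      intro hj'
      exact (ih (by omega)).trans (h2 j hj')
  have hinj : ∀ i j, i < N → j < N → code (so i) = code (so j) → i = j := by
    intro i j hi hj hc
    rcases lt_trichotomy i j with h3 | h3 | h3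
    · exact absurd hc (Nat.ne_of_lt (hlt i j h3 hj))
    · exact h3
    · exact absurd hc.symm (Nat.ne_of_lt (hlt j i h3 hi))
  let f : Fin N → Fin N := fun j => ⟨so j, h1 j j.2⟩
  have hf : Function.Injective f := by
    intro i j hij
    have h3 : so i.val = so j.val := congrArg Fin.val hij
    exact Fin.ext (hinj i j i.2 j.2 (by rw [h3]))
  have hs : Function.Surjective f := Finite.injective_iff_surjective.mp hf
  obtain ⟨i, hi⟩ := hs ⟨a, ha⟩
  obtain ⟨j, hj⟩ := hs ⟨b, hb⟩
  have hi' : so i.val = a := congrArg Fin.val hi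
  have hj' : so j.val = b := congrArg Fin.val hj
  have e : i.val = j.val := hinj _ _ i.2 j.2 (by rw [hi', hj', h])
  rw [← hi', ← hj', e]

section Iso

variable {C X : Type*} [Group C] [Group X] {N : ℕ} {g : ℕ → C} {m : ℕ → X} {P Gn : ℕ → ℕ} {L : ℕ → ℕ → ℕ}

/-- The listing is closed under products. -/
theorem tr_mul_closed (r : ℕ) (hP : ∀ k, 0 < k → k < N → P k < k ∧ Gn k < r)
    (hL : ∀ i k, i < r → k < N → L i k < N)
    (hLE : ∀ i k, i < r → k < N → g i * tr g P Gn k = tr g P Gn (L i k)) :
    ∀ k, k < N → ∀ j, j < N → ∃ l, l < N ∧ tr g P Gn k * tr g P Gn j = tr g P Gn l := by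
  intro k
  induction k using Nat.strong_induction_on with
  | _ k ih =>
    intro hk j hj
    rcases Nat.eq_zero_or_pos k with rfl | h0
    · exact ⟨j, hj, by rw [tr_zero, one_mul]⟩
    · obtain ⟨h1, h2⟩ := hP k h0 hk
      obtain ⟨l, hl, he⟩ := ih (P k) h1 (by omega) j hj
      refine ⟨L (Gn k) l, hL _ _ h2 hl, ?_⟩
      rw [tr_step g P Gn k h0 h1, mul_assoc, he, hLE _ _ h2 hl]

/-- The isomorphism. -/
theorem iso_of_tables (r : ℕ) (hP : ∀ k, 0 < k → k < N → P k < k ∧ Gn k < r)
    (hL : ∀ i k, i < r → k < N → L i k < N)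
    (hLE : ∀ i k, i < r → k < N → g i * tr g P Gn k = tr g P Gn (L i k))
    (hLF : ∀ i k, i < r → k < N → m i * tr m P Gn k = tr m P Gn (L i k))
    (hEinj : ∀ k k', k < N → k' < N → tr g P Gn k = tr g P Gn k' → k = k')
    (hFinj : ∀ k k', k < N → k' < N → tr m P Gn k = tr m P Gn k' → k = k')
    (hEsurj : ∀ c : C, ∃ k, k < N ∧ tr g P Gn k = c)
    (hFsurj : ∀ x : X, ∃ k, k < N ∧ tr m P Gn k = x) : Nonempty (C ≃* X) := by
  choose idx hidx hidx' using hEsurj
  let f : C → X := fun c => tr m P Gn (idx c)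
  have hfE : ∀ k, k < N → f (tr g P Gn k) = tr m P Gn k := by
    intro k hk
    have h1 := hidx' (tr g P Gn k)
    have h2 := hEinj _ _ (hidx _) hk h1
    show tr m P Gn (idx (tr g P Gn k)) = _
    rw [h2]
  have hfg : ∀ i, i < r → ∀ c : C, f (g i * c) = m i * f c := by
    intro i hi c
    have h1 : g i * c = tr g P Gn (L i (idx c)) := by
      rw [← hLE i _ hi (hidx c), hidx']
    rw [h1, hfE _ (hL _ _ hi (hidx c)), ← hLF i _ hi (hidx c)]
  have hkey : ∀ k, k < N → ∀ d : C, f (tr g P Gn k * d) = tr m P Gn k * f d := by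
    intro k
    induction k using Nat.strong_induction_on with
    | _ k ih =>
      intro hk d
      rcases Nat.eq_zero_or_pos k with rfl | h0
      · rw [tr_zero, tr_zero, one_mul, one_mul]
      · obtain ⟨h1, h2⟩ := hP k h0 hk
        rw [tr_step g P Gn k h0 h1, tr_step m P Gn k h0 h1, mul_assoc, hfg _ h2, ih _ h1 (by omega), mul_assoc]
  have hmul : ∀ a b : C, f (a * b) = f a * f b := by
    intro a b
    have h1 := hkey _ (hidx a) b
    rw [hidx'] at h1
    exact h1
  have hinj : Function.Injective f := by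
    intro a b hab
    have h1 := hFinj _ _ (hidx a) (hidx b) hab
    rw [← hidx' a, ← hidx' b, h1]
  have hsurj : Function.Surjective f := by
    intro x
    obtain ⟨k, hk, rfl⟩ := hFsurj x
    exact ⟨_, hfE k hk⟩
  exact ⟨MulEquiv.ofBijective (MonoidHom.mk' f hmul) ⟨hinj, hsurj⟩⟩

end Iso

end Cfsg.Agent.Lib.TableIso
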