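import Mathlib
import Cfsg.Agent.Lib.HeCentData
import Cfsg.Agent.TcData.He.Fin
import Cfsg.Agent.Lib.TableIso

set_option autoImplicit false
set_option maxRecDepth 100000

/-!
# The Held group on `2058` points: a stabilizer chain
-/

namespace Cfsg.Agent.Lib.HeChain

open Cfsg.Agent.Lib.PermChain12 Cfsg.Agent.Lib.HeCentData
open Cfsg.Agent.Lib.TcBits Cfsg.Agent.Lib.TcPres Cfsg.Agent.Lib.TcChain
open Cfsg.Agent.TcData.He (RR)
open Cfsg.Agent.TcData.He.I2058 (Phi pr hR hv)
open Cfsg.Spor.He (Gen)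

/-- The group. -/
abbrev G := PresentedGroup RR

theorem Phi_high (c : G) {i : ℕ} (hi : 2058 ≤ i) : Phi c i = i :=
  fix_above_all hR (fun x => Cfsg.Agent.TcData.He.Fin.hab x i hi) c

theorem Phi_lt (c : G) {p : ℕ} (hp : p < 2058) : Phi c p < 2058 := by
  by_contra h
  have h1 := Phi_high c (not_lt.mp h)
  have h2 := (Phi c).injective h1
  omega

theorem Phi_mul (c d : G) (p : ℕ) : Phi (c * d) p = Phi c (Phi d p) := by
  rw [map_mul, Equiv.Perm.mul_apply]

theorem Phi_inv_self (c : G) (p : ℕ) : Phi c⁻¹ (Phi c p) = p := by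
  rw [← Phi_mul, inv_mul_cancel, map_one, Equiv.Perm.one_apply]

theorem Phi_inj : Function.Injective Phi := Cfsg.Agent.TcData.He.Fin.main.2

theorem card_G : Nat.card G = 4030387200 := Cfsg.Agent.TcData.He.Fin.main.1

/-- The generators by number. -/
def gl : ℕ → Gen
  | 0 => .a
  | 1 => .b
  | 2 => .c
  | 3 => .d
  | 4 => .e
  | 5 => .f
  | _ => .g

/-- Equality of truth values. -/
def bEq (a b : Bool) : Bool := cond a b (not b)

theorem bEq_spec {a b : Bool} (h : bEq a b = true) : a = b := by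
  cases a <;> cases b <;> simp_all [bEq]

theorem gen_bits_chk : allB 7 3 (fun l => allB 12 4 (fun j => force (progApply (pr (gl l)) (slice 12 j)) fun Y =>
    allB 2058 12 (fun i => bEq (Y.testBit i) ((S l i).testBit j)))) = true := by decide +kernel

theorem gen_val {l : ℕ} (hl : l < 7) {i : ℕ} (hi : i < 2058) : Phi (PresentedGroup.of (gl l)) i = S l i := by
  have hlt : Phi (PresentedGroup.of (gl l)) i < 2058 := Phi_lt _ hi
  have hS : S l i < 2058 := Nat.le_of_ble_eq_true (allB_spec _ _ _ (by norm_num)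
    (allB_spec _ _ _ (by norm_num) gen_lt_chk l hl) i hi)
  have e : Phi (PresentedGroup.of (gl l)) = progPerm (pr (gl l)) := repOf_of hR _
  rw [e] at hlt ⊢
  apply Nat.eq_of_testBit_eq
  intro j
  by_cases hj : j < 12
  · have h1 := allB_spec _ _ _ (by norm_num) (allB_spec _ _ _ (by norm_num) gen_bits_chk l hl) j hj
    rw [force_eq] at h1
    have h2 := bEq_spec (allB_spec _ _ _ (by norm_num) h1 i hi)
    rw [testBit_progApply (2 ^ 12) _ (hv _), testBit_slice] at h2
    rw [← h2]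
    have h3 : decide (progPerm (pr (gl l)) i < 2 ^ 12) = true := by
      rw [decide_eq_true_eq]
      omega
    rw [h3, Bool.true_and]
  · have h4 : ∀ y, y < 2058 → y.testBit j = false := by
      intro y hy
      apply Nat.testBit_lt_two_pow
      calc y < 2 ^ 12 := by omega
        _ ≤ 2 ^ j := Nat.pow_le_pow_right (by norm_num) (by omega)
    rw [h4 _ hlt, h4 _ hS]

theorem word_spec {w : List ℕ} (h : ∀ a ∈ w, ∃ g : G, ∀ x, x < 2058 → Phi g x = S a x) :
    ∃ g : G, ∀ x, x < 2058 → Phi g x = walkF S w x := by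
  induction w with
  | nil =>
    refine ⟨1, fun x _ => ?_⟩
    rw [map_one]
    rfl
  | cons a w ih =>
    obtain ⟨g, hg⟩ := h a List.mem_cons_self
    obtain ⟨k, hk⟩ := ih (fun b hb => h b (List.mem_cons_of_mem _ hb))
    refine ⟨k * g, fun x hx => ?_⟩
    rw [Phi_mul, hk _ (Phi_lt g hx), hg x hx]
    show _ = force (S a x) (walkF S w)
    rw [force_eq]

theorem letter_spec : ∀ l, l < 16 → ∃ g : G, ∀ x, x < 2058 → Phi g x = S l x := by
  intro l
  induction l using Nat.strong_induction_on with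
  | _ l ih =>
    intro hl
    by_cases h7 : l < 7
    · exact ⟨PresentedGroup.of (gl l), fun x hx => gen_val h7 hx⟩
    · have h1 := allB_spec _ _ _ (by norm_num) def_chk (l - 7) (by omega)
      rw [show 7 + (l - 7) = l by omega] at h1
      simp only [Pdef, Bool.and_eq_true] at h1
      obtain ⟨h2, h4⟩ := h1
      have hletters : ∀ a ∈ dW l, a < l := fun a ha =>
        Nat.le_of_ble_eq_true (List.all_eq_true.mp h2 a ha)
      obtain ⟨g, hv'⟩ := word_spec (w := dW l)
        (fun a ha => ih a (hletters a ha) (by have := hletters a ha; omega))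
      refine ⟨g, fun x hx => ?_⟩
      rw [hv' x hx]
      exact Nat.eq_of_beq_eq_true (allB_spec _ _ _ (by norm_num) h4 x hx)

/-- The element of a letter. -/
noncomputable def Lt (l : ℕ) : G := if h : l < 16 then (letter_spec l h).choose else 1

theorem Lt_val {l : ℕ} (h : l < 16) {x : ℕ} (hx : x < 2058) : Phi (Lt l) x = S l x := by
  rw [Lt, dif_pos h]
  exact (letter_spec l h).choose_spec x hx

/-! ### The levels of the chain -/

theorem lev_spec (O P Gn E : ℕ → ℕ) (fx : List ℕ) (m k : ℕ) (hk : m ≤ 2 ^ k) (b : ℕ) (hb2 : b < 2058) (hb : O 0 = b)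
    (hf : ∀ f ∈ fx, f < 2058) (h : allB m k (Plev O P Gn E fx) = true) :
    ∀ y, y < m → (∀ f ∈ fx, Phi (tr Lt P Gn y) f = f) ∧ Phi (tr Lt P Gn y) b = O y ∧ E (O y) = y ∧
      (0 < y → P y < y ∧ Gn y < 16) := by
  intro y
  induction y using Nat.strong_induction_on with
  | _ y ih =>
    intro hy
    have h1 := allB_spec _ _ _ hk h y hy
    simp only [Plev, force_eq, Bool.and_eq_true, Bool.or_eq_true] at h1
    obtain ⟨h2, h3⟩ := h1
    rcases h3 with h3 | ⟨h4, h5, h6, h7⟩
    · have : y = 0 := Nat.eq_of_beq_eq_true h3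
      subst this
      rw [tr_zero, map_one]
      exact ⟨fun f _ => rfl, hb.symm, Nat.eq_of_beq_eq_true h2, fun h => absurd h (by norm_num)⟩
    · have hp : P y < y := Nat.le_of_ble_eq_true h4
      have hg : Gn y < 16 := Nat.le_of_ble_eq_true h5
      have hpos : 0 < y := by omega
      obtain ⟨i1, i2, -, -⟩ := ih (P y) hp (by omega)
      rw [tr_step Lt P Gn y hpos hp]
      refine ⟨?_, ?_, Nat.eq_of_beq_eq_true h2, fun _ => ⟨hp, hg⟩⟩
      · intro f hf'
        rw [Phi_mul, i1 f hf', Lt_val hg (hf f hf')]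
        exact Nat.eq_of_beq_eq_true (List.all_eq_true.mp h6 f hf')
      · have h8 : O (P y) < 2058 := by
          rw [← i2]
          exact Phi_lt _ hb2
        rw [Phi_mul, i2, Lt_val hg h8]
        exact Nat.eq_of_beq_eq_true h7

/-- The transversal of the first level. -/
noncomputable def t1 (y : ℕ) : G := tr Lt P1 G1 y
/-- The transversal of the second level. -/
noncomputable def t2 (y : ℕ) : G := tr Lt P2 G2 y
/-- The elements of the stabilizer of the first two base points. -/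
noncomputable def hT (y : ℕ) : G := tr Lt PH GH y

theorem L1 : ∀ y, y < 2058 → (∀ f ∈ ([] : List ℕ), Phi (t1 y) f = f) ∧ Phi (t1 y) 49 = O1 y ∧ E1 (O1 y) = y ∧
    (0 < y → P1 y < y ∧ G1 y < 16) :=
  lev_spec O1 P1 G1 E1 [] 2058 12 (by norm_num) 49 (by norm_num) O1_zero (by simp) lev1_chk

theorem L2 : ∀ y, y < 1360 → (∀ f ∈ [49], Phi (t2 y) f = f) ∧ Phi (t2 y) 178 = O2 y ∧ E2 (O2 y) = y ∧
    (0 < y → P2 y < y ∧ G2 y < 16) :=
  lev_spec O2 P2 G2 E2 [49] 1360 11 (by norm_num) 178 (by norm_num) O2_zero (by simp) lev2_chk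

theorem t2_b1 {y : ℕ} (hy : y < 1360) : Phi (t2 y) 49 = 49 := (L2 y hy).1 49 (by simp)

theorem Q_lt {j : ℕ} (hj : j < 6) : Q j < 2058 := by
  have h := allB_spec _ _ _ (by norm_num) V_zero_chk j hj
  simp only [Bool.and_eq_true] at h
  exact Nat.le_of_ble_eq_true h.2

theorem tl_spec : ∀ m, m < 1440 → Phi (hT m) 49 = 49 ∧ Phi (hT m) 178 = 178 ∧ (∀ j, j < 6 → Phi (hT m) (Q j) = V m j) := by
  intro m
  induction m using Nat.strong_induction_on with
  | _ m ih =>
    intro hm
    rcases Nat.eq_zero_or_pos m with rfl | h0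
    · have e : hT 0 = 1 := tr_zero _ _ _
      rw [e, map_one]
      refine ⟨rfl, rfl, fun j hj => ?_⟩
      have h := allB_spec _ _ _ (by norm_num) V_zero_chk j hj
      simp only [Bool.and_eq_true] at h
      exact (Nat.eq_of_beq_eq_true h.1).symm
    · have h1 := allB_spec _ _ _ (by norm_num) tl_chk m hm
      have hm0 : Nat.beq m 0 = false := by
        rw [Bool.eq_false_iff]
        intro h
        have := Nat.eq_of_beq_eq_true h
        omega
      rw [hm0, Bool.false_or] at h1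
      simp only [force_eq, Bool.and_eq_true] at h1
      obtain ⟨h2, h3, h4, h5, h6⟩ := h1
      have hp : PH m < m := Nat.le_of_ble_eq_true h2
      have hg : GH m < 16 := Nat.le_of_ble_eq_true h3
      obtain ⟨i1, i2, i3⟩ := ih _ hp (by omega)
      have e : hT m = Lt (GH m) * hT (PH m) := tr_step _ _ _ m h0 hp
      rw [e, Phi_mul, Phi_mul, i1, i2, Lt_val hg (by norm_num), Lt_val hg (by norm_num)]
      refine ⟨Nat.eq_of_beq_eq_true h4, Nat.eq_of_beq_eq_true h5, fun j hj => ?_⟩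
      rw [Phi_mul, i3 j hj, Lt_val hg]
      · exact (Nat.eq_of_beq_eq_true (allB_spec _ _ _ (by norm_num) h6 j hj)).symm
      · rw [← i3 j hj]
        exact Phi_lt _ (Q_lt hj)

theorem codeT_inj {a b : ℕ} (ha : a < 1440) (hb : b < 1440) (h : codeT a = codeT b) : a = b := by
  refine Cfsg.Agent.Lib.TableIso.inj_of_sorted (N := 1440) (code := codeT) (so := soT) ?_ ?_ ha hb h
  · intro j hj
    have h1 := allB_spec _ _ _ (by norm_num) soT_chk j hj
    simp only [Bool.and_eq_true] at h1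
    exact Nat.le_of_ble_eq_true h1.1
  · intro j hj
    have h1 := allB_spec _ _ _ (by norm_num) soT_chk j (by omega)
    simp only [Bool.and_eq_true, Bool.or_eq_true] at h1
    rcases h1.2 with h2 | h2
    · have : j + 1 = 1440 := Nat.eq_of_beq_eq_true h2
      omega
    · exact Nat.le_of_ble_eq_true h2

theorem hT_inj {a b : ℕ} (ha : a < 1440) (hb : b < 1440) (h : ∀ j, j < 3 → Phi (hT a) (Q j) = Phi (hT b) (Q j)) : a = b := by
  apply codeT_inj ha hb
  have e : ∀ j, j < 3 → V a j = V b j := by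
    intro j hj
    rw [← (tl_spec a ha).2.2 j (by omega), ← (tl_spec b hb).2.2 j (by omega)]
    exact h j hj
  show Nat.add _ _ = Nat.add _ _
  rw [e 0 (by norm_num), e 1 (by norm_num), e 2 (by norm_num)]

/-- One step of the uniqueness. -/
theorem step_inj {t : ℕ → G} {O E : ℕ → ℕ} {b : ℕ} {A A' : G} {x x' : ℕ} (hA : Phi A b = b) (hA' : Phi A' b = b)
    (hv : Phi (t x) b = O x) (hv' : Phi (t x') b = O x') (hE : E (O x) = x) (hE' : E (O x') = x')
    (h : t x * A = t x' * A') : x = x' ∧ A = A' := by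
  have h1 : Phi (t x) b = Phi (t x') b := by
    have h2 := congrArg (fun f : G => Phi f b) h
    simp only [Phi_mul, hA, hA'] at h2
    exact h2
  have h2 : O x = O x' := by rw [← hv, ← hv', h1]
  have h3 : x = x' := by rw [← hE, ← hE', h2]
  subst h3
  exact ⟨rfl, mul_left_cancel h⟩

/-- The product over the levels. -/
noncomputable def fT (x : Fin 2058 × Fin 1360 × Fin 1440) : G := t1 x.1 * (t2 x.2.1 * hT x.2.2)

theorem fT_inj : Function.Injective fT := by
  rintro ⟨x1, x2, x3⟩ ⟨x1', x2', x3'⟩ h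
  simp only [fT] at h
  obtain ⟨e1, h⟩ := step_inj (t := t1) (O := O1) (E := E1) (b := 49)
    (by rw [Phi_mul, (tl_spec _ x3.2).1, t2_b1 x2.2])
    (by rw [Phi_mul, (tl_spec _ x3'.2).1, t2_b1 x2'.2])
    (L1 _ x1.2).2.1 (L1 _ x1'.2).2.1 (L1 _ x1.2).2.2.1 (L1 _ x1'.2).2.2.1 h
  obtain ⟨e2, h⟩ := step_inj (t := t2) (O := O2) (E := E2) (b := 178)
    (tl_spec _ x3.2).2.1 (tl_spec _ x3'.2).2.1
    (L2 _ x2.2).2.1 (L2 _ x2'.2).2.1 (L2 _ x2.2).2.2.1 (L2 _ x2'.2).2.2.1 h
  have e3 : x3.val = x3'.val := hT_inj x3.2 x3'.2 (fun j _ => by rw [h])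
  simp only [Prod.mk.injEq]
  exact ⟨Fin.ext e1, Fin.ext e2, Fin.ext e3⟩

theorem card_dom : Nat.card (Fin 2058 × Fin 1360 × Fin 1440) = 4030387200 := by
  simp only [Nat.card_eq_fintype_card, Fintype.card_prod, Fintype.card_fin]

theorem exists_tuple (g : G) : ∃ x1 x2 m, x1 < 2058 ∧ x2 < 1360 ∧ m < 1440 ∧ g = t1 x1 * (t2 x2 * hT m) := by
  have hb : Function.Bijective fT :=
    Function.Injective.bijective_of_nat_card_le fT_inj (by rw [card_dom, card_G])
  obtain ⟨⟨x1, x2, x3⟩, hx⟩ := hb.2 g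
  exact ⟨x1, x2, x3, x1.2, x2.2, x3.2, hx.symm⟩

/-- A zero index from a fixed base point. -/
theorem zero_of_fix {t : ℕ → G} {O E : ℕ → ℕ} {b x : ℕ} (hv : Phi (t x) b = O x)
    (hE : E (O x) = x) (hE0 : E (O 0) = 0) (hO : O 0 = b) (h : Phi (t x) b = b) : x = 0 := by
  have h1 : O x = O 0 := by rw [← hv, h, hO]
  rw [← hE, h1, hE0]

theorem t1_zero : t1 0 = 1 := tr_zero _ _ _
theorem t2_zero : t2 0 = 1 := tr_zero _ _ _
theorem hT_zero : hT 0 = 1 := tr_zero _ _ _

/-- The second level. -/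
theorem level2 {h : G} (h1 : Phi h 49 = 49) : ∃ y, y < 1360 ∧ Phi h 178 = O2 y := by
  obtain ⟨x1, x2, m, i1, i2, i3, rfl⟩ := exists_tuple h
  rw [Phi_mul, Phi_mul, (tl_spec m i3).1, t2_b1 i2] at h1
  have e1 : x1 = 0 := zero_of_fix (t := t1) (O := O1) (E := E1) (L1 _ i1).2.1 (L1 _ i1).2.2.1
    (L1 0 (by norm_num)).2.2.1 O1_zero h1
  subst e1
  refine ⟨x2, i2, ?_⟩
  rw [t1_zero, one_mul, Phi_mul, (tl_spec m i3).2.1]
  exact (L2 _ i2).2.1

/-- The stabilizer of the first two base points. -/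
theorem stab2 {h : G} (h1 : Phi h 49 = 49) (h2 : Phi h 178 = 178) : ∃ m, m < 1440 ∧ h = hT m := by
  obtain ⟨x1, x2, m, i1, i2, i3, rfl⟩ := exists_tuple h
  rw [Phi_mul, Phi_mul, (tl_spec m i3).1, t2_b1 i2] at h1
  have e1 : x1 = 0 := zero_of_fix (t := t1) (O := O1) (E := E1) (L1 _ i1).2.1 (L1 _ i1).2.2.1
    (L1 0 (by norm_num)).2.2.1 O1_zero h1
  subst e1
  rw [t1_zero, one_mul, Phi_mul, (tl_spec m i3).2.1] at h2
  have e2 : x2 = 0 := zero_of_fix (t := t2) (O := O2) (E := E2) (L2 _ i2).2.1 (L2 _ i2).2.2.1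
    (L2 0 (by norm_num)).2.2.1 O2_zero h2
  subst e2
  exact ⟨m, i3, by rw [t1_zero, t2_zero, one_mul, one_mul]⟩

theorem bas_lt {j : ℕ} (hj : j < 5) : bas j < 2058 := by
  interval_cases j <;> decide

theorem eq_one_of_base {h : G} (hb : ∀ j, j < 5 → Phi h (bas j) = bas j) : h = 1 := by
  obtain ⟨m, hm, rfl⟩ := stab2 (hb 0 (by norm_num)) (hb 1 (by norm_num))
  have e : m = 0 := by
    refine hT_inj hm (by norm_num) (fun j hj => ?_)
    rw [hT_zero, map_one, Equiv.Perm.one_apply]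
    interval_cases j
    · exact hb 2 (by norm_num)
    · exact hb 3 (by norm_num)
    · exact hb 4 (by norm_num)
  rw [e, hT_zero]

theorem eq_of_base {c d : G} (hb : ∀ j, j < 5 → Phi c (bas j) = Phi d (bas j)) : c = d := by
  have h := eq_one_of_base (h := d⁻¹ * c) (fun j hj => by
    rw [Phi_mul, hb j hj, Phi_inv_self])
  rw [inv_mul_eq_one] at h
  exact h.symm

end Cfsg.Agent.Lib.HeChain
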