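import Mathlib
import Cfsg.Agent.Lib.HeChain

set_option autoImplicit false
set_option maxRecDepth 100000
set_option linter.style.haveILetI false

/-!
# The centralizer of an involution in the Held group

The Held group has an involution whose centralizer is isomorphic to the centralizer of a transvection in `SL(5, 2)`.
Both groups are listed along the same spanning tree of their left Cayley graphs.
-/

namespace Cfsg.Agent.Lib.HeCent

open Cfsg.Agent.Lib.PermChain12 Cfsg.Agent.Lib.HeCentData Cfsg.Agent.Lib.HeChain Cfsg.Agent.Lib.TableIso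
open Cfsg.Agent.TcData.He.I2058 (Phi)

/-! ### The side of the Held group -/

/-- The involution. -/
noncomputable def τ : G := Lt tauL

theorem τ_val {x : ℕ} (hx : x < 2058) : Phi τ x = S tauL x := Lt_val (by decide) hx

theorem τ_sq : τ * τ = 1 := by
  apply eq_one_of_base
  intro j hj
  rw [Phi_mul, τ_val (bas_lt hj), τ_val (by
    rw [← τ_val (bas_lt hj)]
    exact Phi_lt _ (bas_lt hj))]
  exact Nat.eq_of_beq_eq_true (allB_spec _ _ _ (by norm_num) tau_sq_chk _ (bas_lt hj))

theorem τ_ne : τ ≠ 1 := by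
  intro h
  have h1 := τ_val (x := 0) (by norm_num)
  rw [h, map_one] at h1
  exact tau_ne_chk h1.symm

theorem τ_order : orderOf τ = 2 := orderOf_eq_prime (by rw [pow_two, τ_sq]) τ_ne

/-- The centralizer. -/
abbrev C := Subgroup.centralizer ({τ} : Set G)

theorem mem_C {c : G} : c ∈ C ↔ c * τ = τ * c := by
  rw [Subgroup.mem_centralizer_iff]
  constructor
  · intro h
    exact (h τ rfl).symm
  · intro h y hy
    have hy' : y = τ := hy
    rw [hy']
    exact h.symm

theorem gL_cases (i : ℕ) : gL i = 14 ∨ gL i = 15 := by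
  cases i with
  | zero => exact Or.inl rfl
  | succ n => exact Or.inr rfl

theorem gL_lt (i : ℕ) : gL i < 16 := by
  rcases gL_cases i with h | h <;> rw [h] <;> norm_num

theorem gL_eq (i : ℕ) : gL i = gL (min i 1) := by
  cases i with
  | zero => rfl
  | succ n =>
    have : min (n + 1) 1 = 1 := by omega
    rw [this]
    rfl

theorem g_comm (i : ℕ) : Lt (gL i) * τ = τ * Lt (gL i) := by
  apply eq_of_base
  intro j hj
  have hb := bas_lt hj
  have hi : min i 1 < 2 := by omega
  have h1 := Nat.eq_of_beq_eq_true (allB_spec _ _ _ (by norm_num) (allB_spec _ _ _ (by norm_num) comm_chk _ hi) _ hb)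
  rw [← gL_eq] at h1
  have h2 : S tauL (bas j) < 2058 := by
    rw [← τ_val hb]
    exact Phi_lt _ hb
  have h3 : S (gL i) (bas j) < 2058 := by
    rw [← Lt_val (gL_lt i) hb]
    exact Phi_lt _ hb
  rw [Phi_mul, Phi_mul, τ_val hb, Lt_val (gL_lt i) h2, Lt_val (gL_lt i) hb, τ_val h3]
  exact h1

/-- The generators of the centralizer. -/
noncomputable def gC (i : ℕ) : C := ⟨Lt (gL i), mem_C.2 (g_comm i)⟩

/-- The elements of the centralizer. -/
noncomputable def E (k : ℕ) : C := tr gC PK GK k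

theorem PK_spec {k : ℕ} (h0 : 0 < k) (hk : k < 21504) : PK k < k ∧ GK k < 2 ∧ LK (GK k) (PK k) = k := by
  have h1 := allB_spec _ _ _ (by norm_num) Ktree_chk k hk
  have hm0 : Nat.beq k 0 = false := by
    rw [Bool.eq_false_iff]
    intro h
    have := Nat.eq_of_beq_eq_true h
    omega
  rw [hm0, Bool.false_or] at h1
  simp only [force_eq, Bool.and_eq_true] at h1
  exact ⟨Nat.le_of_ble_eq_true h1.1, Nat.le_of_ble_eq_true h1.2.1, Nat.eq_of_beq_eq_true h1.2.2⟩

theorem KL_spec {i k : ℕ} (hi : i < 2) (hk : k < 21504) : LK i k < 21504 ∧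
    (∀ j, j < 5 → BK (LK i k) j = S (gL i) (BK k j)) ∧ (∀ c, c < 5 → colK (LK i k) c = act i (colK k c)) := by
  have h1 := allB_spec _ _ _ (by norm_num) (allB_spec _ _ _ (by norm_num) KL_chk i hi) k hk
  simp only [force_eq, Bool.and_eq_true] at h1
  refine ⟨Nat.le_of_ble_eq_true h1.1, fun j hj => ?_, fun c hc => ?_⟩
  · exact Nat.eq_of_beq_eq_true (allB_spec _ _ _ (by norm_num) h1.2.1 j hj)
  · exact Nat.eq_of_beq_eq_true (allB_spec _ _ _ (by norm_num) h1.2.2 c hc)

theorem K0_spec {j : ℕ} (hj : j < 5) : BK 0 j = bas j ∧ colK 0 j = 2 ^ j := by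
  have h1 := allB_spec _ _ _ (by norm_num) K0_chk j hj
  simp only [Bool.and_eq_true] at h1
  exact ⟨Nat.eq_of_beq_eq_true h1.1, Nat.eq_of_beq_eq_true h1.2⟩

theorem E_base : ∀ k, k < 21504 → ∀ j, j < 5 → Phi (E k : G) (bas j) = BK k j := by
  intro k
  induction k using Nat.strong_induction_on with
  | _ k ih =>
    intro hk j hj
    rcases Nat.eq_zero_or_pos k with rfl | h0
    · have e : E 0 = 1 := tr_zero _ _ _
      rw [e, (K0_spec hj).1]
      simp
    · obtain ⟨h1, h2, h3⟩ := PK_spec h0 hk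
      have e : E k = gC (GK k) * E (PK k) := tr_step _ _ _ k h0 h1
      have e2 : (E k : G) = Lt (gL (GK k)) * (E (PK k) : G) := by
        rw [e]
        rfl
      rw [e2, Phi_mul, ih _ h1 (by omega) j hj, Lt_val (gL_lt _) (by
        rw [← ih _ h1 (by omega) j hj]
        exact Phi_lt _ (bas_lt hj))]
      rw [← (KL_spec h2 (by omega : PK k < 21504)).2.1 j hj, h3]

theorem hLE {i k : ℕ} (hi : i < 2) (hk : k < 21504) : gC i * E k = E (LK i k) := by
  apply Subtype.ext
  apply eq_of_base
  intro j hj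
  obtain ⟨h1, h2, -⟩ := KL_spec hi hk
  show Phi (Lt (gL i) * (E k : G)) (bas j) = _
  rw [Phi_mul, E_base _ h1 j hj, E_base _ hk j hj, Lt_val (gL_lt _) (by
    rw [← E_base _ hk j hj]
    exact Phi_lt _ (bas_lt hj)), h2 j hj]

theorem code1_inj {a b : ℕ} (ha : a < 21504) (hb : b < 21504) (h : code1 a = code1 b) : a = b := by
  refine inj_of_sorted (N := 21504) (code := code1) (so := soB) ?_ ?_ ha hb h
  · intro j hj
    have h1 := allB_spec _ _ _ (by norm_num) soB_chk j hj
    simp only [Bool.and_eq_true] at h1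
    exact Nat.le_of_ble_eq_true h1.1
  · intro j hj
    have h1 := allB_spec _ _ _ (by norm_num) soB_chk j (by omega)
    simp only [Bool.and_eq_true, Bool.or_eq_true] at h1
    rcases h1.2 with h2 | h2
    · have : j + 1 = 21504 := Nat.eq_of_beq_eq_true h2
      omega
    · exact Nat.le_of_ble_eq_true h2

theorem code2_inj {a b : ℕ} (ha : a < 21504) (hb : b < 21504) (h : code2 a = code2 b) : a = b := by
  refine inj_of_sorted (N := 21504) (code := code2) (so := soF) ?_ ?_ ha hb h
  · intro j hj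
    have h1 := allB_spec _ _ _ (by norm_num) soF_chk j hj
    simp only [Bool.and_eq_true] at h1
    exact Nat.le_of_ble_eq_true h1.1
  · intro j hj
    have h1 := allB_spec _ _ _ (by norm_num) soF_chk j (by omega)
    simp only [Bool.and_eq_true, Bool.or_eq_true] at h1
    rcases h1.2 with h2 | h2
    · have : j + 1 = 21504 := Nat.eq_of_beq_eq_true h2
      omega
    · exact Nat.le_of_ble_eq_true h2

theorem E_inj {a b : ℕ} (ha : a < 21504) (hb : b < 21504) (h : E a = E b) : a = b := by
  apply code1_inj ha hb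
  have e : ∀ j, j < 5 → BK a j = BK b j := by
    intro j hj
    rw [← E_base a ha j hj, ← E_base b hb j hj, h]
  unfold code1
  rw [e 0 (by norm_num), e 1 (by norm_num), e 2 (by norm_num), e 3 (by norm_num), e 4 (by norm_num)]

theorem E_closed {a b : ℕ} (ha : a < 21504) (hb : b < 21504) : ∃ l, l < 21504 ∧ E a * E b = E l :=
  tr_mul_closed (L := LK) 2 (fun k h0 hk => ⟨(PK_spec h0 hk).1, (PK_spec h0 hk).2.1⟩)
    (fun i k hi hk => (KL_spec hi hk).1) (fun i k hi hk => hLE hi hk) a ha b hb

theorem fix_of_comm {d : G} (h : d * τ = τ * d) {p : ℕ} (hp : Phi τ p = p) : Phi τ (Phi d p) = Phi d p := by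
  have h1 := congrArg (fun f : G => Phi f p) h
  simp only [Phi_mul, hp] at h1
  exact h1.symm

/-- Every element of the centralizer is listed. -/
theorem E_surj (c : C) : ∃ k, k < 21504 ∧ E k = c := by
  -- the first base point
  have hcc : (c : G) * τ = τ * c := mem_C.1 c.2
  have hp1 : Phi (c : G) 49 < 2058 := Phi_lt _ (by norm_num)
  have hA := allB_spec _ _ _ (by norm_num) A_chk _ hp1
  have hy : Nat.beq (S tauL (Phi (c : G) 49)) (Phi (c : G) 49) = true := by
    rw [← τ_val hp1, fix_of_comm hcc (by rw [τ_val (by norm_num)]; exact tau_b1)]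
    exact Nat.beq_refl _
  rw [hy] at hA
  simp only [Bool.not_true, Bool.false_or, Bool.and_eq_true] at hA
  obtain ⟨hA1, hA2⟩ := hA
  have hi : Ai (Phi (c : G) 49) < 21504 := Nat.le_of_ble_eq_true hA1
  set i := Ai (Phi (c : G) 49) with hidef
  have hab : Phi (E i : G) 49 = Phi (c : G) 49 := by
    have h1 := E_base i hi 0 (by norm_num)
    have h2 : BK i 0 = Phi (c : G) 49 := Nat.eq_of_beq_eq_true hA2
    exact h1.trans h2
  set c₁ : C := (E i)⁻¹ * c with hc1
  have hc1b : Phi (c₁ : G) 49 = 49 := by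
    have e : (c₁ : G) = (E i : G)⁻¹ * c := rfl
    rw [e, Phi_mul, ← hab, Phi_inv_self]
  -- the second base point
  obtain ⟨y, hy1, hy2⟩ := level2 hc1b
  have hO : O2 y < 2058 := by
    rw [← hy2]
    exact Phi_lt _ (by norm_num)
  have hB := allB_spec _ _ _ (by norm_num) B_chk y hy1
  have hy3 : Nat.beq (S tauL (O2 y)) (O2 y) = true := by
    rw [← τ_val hO, ← hy2, fix_of_comm (mem_C.1 c₁.2) (by rw [τ_val (by norm_num)]; exact tau_b2)]
    exact Nat.beq_refl _
  rw [hy3] at hB
  simp only [Bool.not_true, Bool.false_or, Bool.and_eq_true] at hB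
  obtain ⟨hB1, hB2, hB3⟩ := hB
  have hj : Bi y < 21504 := Nat.le_of_ble_eq_true hB1
  set j := Bi y with hjdef
  have hb1 : Phi (E j : G) 49 = 49 := by
    have h1 := E_base j hj 0 (by norm_num)
    have h2 : BK j 0 = 49 := Nat.eq_of_beq_eq_true hB2
    exact h1.trans h2
  have hb2 : Phi (E j : G) 178 = Phi (c₁ : G) 178 := by
    have h1 := E_base j hj 1 (by norm_num)
    have h2 : BK j 1 = O2 y := Nat.eq_of_beq_eq_true hB3
    rw [hy2]
    exact h1.trans h2
  set c₂ : C := (E j)⁻¹ * c₁ with hc2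
  have hc2e : (c₂ : G) = (E j : G)⁻¹ * c₁ := rfl
  have hc21 : Phi (c₂ : G) 49 = 49 := by
    rw [hc2e, Phi_mul, hc1b]
    nth_rewrite 1 [← hb1]
    rw [Phi_inv_self]
  have hc22 : Phi (c₂ : G) 178 = 178 := by
    rw [hc2e, Phi_mul, ← hb2, Phi_inv_self]
  -- the stabilizer of two points
  obtain ⟨m, hm, hme⟩ := stab2 hc21 hc22
  have hV := (tl_spec m hm).2.2
  have hcomm2 : (c₂ : G) * τ = τ * c₂ := mem_C.1 c₂.2
  have htest : ∀ t, t < 3 → V m (t + 3) = S tauL (V m t) := by
    intro t ht
    have h1 := congrArg (fun f : G => Phi f (Q t)) hcomm2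
    simp only [Phi_mul] at h1
    have hQ : Q t < 2058 := Q_lt (by omega)
    have h2 : S tauL (Q t) = Q (t + 3) :=
      Nat.eq_of_beq_eq_true (allB_spec _ _ _ (by norm_num) tau_Q_chk t ht)
    rw [τ_val hQ, h2, hme, hV _ (by omega), hV _ (by omega), τ_val] at h1
    · exact h1
    · rw [← hV t (by omega)]
      exact Phi_lt _ hQ
  have hH := allB_spec _ _ _ (by norm_num) H_chk m hm
  have hy4 : and (Nat.beq (V m 3) (S tauL (V m 0))) (and (Nat.beq (V m 4) (S tauL (V m 1)))
      (Nat.beq (V m 5) (S tauL (V m 2)))) = true := by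
    rw [htest 0 (by norm_num), htest 1 (by norm_num), htest 2 (by norm_num)]
    simp only [Nat.beq_refl, Bool.and_true]
  rw [hy4] at hH
  simp only [Bool.not_true, Bool.false_or, Bool.and_eq_true] at hH
  obtain ⟨hH1, hH2, hH3, hH4, hH5, hH6⟩ := hH
  have hk : Hi m < 21504 := Nat.le_of_ble_eq_true hH1
  have hc2E : c₂ = E (Hi m) := by
    apply Subtype.ext
    apply eq_of_base
    intro t ht
    rw [E_base _ hk t ht, hme]
    have hv2 := (tl_spec m hm)
    interval_cases t
    · exact hv2.1.trans (Nat.eq_of_beq_eq_true hH2).symm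
    · exact hv2.2.1.trans (Nat.eq_of_beq_eq_true hH3).symm
    · exact (hV 0 (by norm_num)).trans (Nat.eq_of_beq_eq_true hH4).symm
    · exact (hV 1 (by norm_num)).trans (Nat.eq_of_beq_eq_true hH5).symm
    · exact (hV 2 (by norm_num)).trans (Nat.eq_of_beq_eq_true hH6).symm
  obtain ⟨l1, hl1, e1⟩ := E_closed hj hk
  obtain ⟨l2, hl2, e2⟩ := E_closed hi hl1
  refine ⟨l2, hl2, ?_⟩
  rw [← e2, ← e1, ← hc2E, hc2, hc1]
  group

/-! ### The side of the special linear group -/

/-- The matrices. -/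
abbrev M5 := Matrix (Fin 5) (Fin 5) (ZMod 2)
/-- The special linear group. -/
abbrev SL5 := Matrix.SpecialLinearGroup (Fin 5) (ZMod 2)

/-- The embedding of the last three coordinates. -/
def ι3 (i : Fin 3) : Fin 5 := ⟨i.val + 2, by omega⟩

theorem ι3_ne0 (i : Fin 3) : ι3 i ≠ 0 := by
  revert i
  decide

theorem ι3_ne1 (i : Fin 3) : ι3 i ≠ 1 := by
  revert i
  decide

theorem cases5 (a : Fin 5) : a = 0 ∨ a = 1 ∨ ∃ i, a = ι3 i := by
  revert a
  decide

theorem comm_entries {M : M5} (h : M * Matrix.transvection 0 1 1 = Matrix.transvection 0 1 1 * M) :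
    (∀ a, a ≠ 0 → M a 0 = 0) ∧ (∀ c, c ≠ 1 → M 1 c = 0) ∧ M 0 0 = M 1 1 := by
  have key : ∀ a c, (if c = 1 then M a 0 else 0) = (if a = 0 then M 1 c else 0) := by
    intro a c
    have h1 := congrFun (congrFun h a) c
    simp only [Matrix.transvection, Matrix.mul_add, Matrix.add_mul, Matrix.mul_one, Matrix.one_mul,
      Matrix.add_apply, add_right_inj] at h1
    have e1 : (∑ x, (Matrix.single (0 : Fin 5) (1 : Fin 5) (1 : ZMod 2)) a x * M x c) = if a = 0 then M 1 c else 0 := by
      by_cases ha : a = 0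
      · simp [ha, Matrix.single_apply]
      · have ha' : ¬ (0 : Fin 5) = a := fun h => ha h.symm
        simp [ha, ha', Matrix.single_apply]
    have e2 : (∑ x, M a x * (Matrix.single (0 : Fin 5) (1 : Fin 5) (1 : ZMod 2)) x c) = if c = 1 then M a 0 else 0 := by
      by_cases hc : c = 1
      · simp [hc, Matrix.single_apply]
      · have hc' : ¬ (1 : Fin 5) = c := fun h => hc h.symm
        simp [hc, hc', Matrix.single_apply]
    rw [Matrix.mul_apply, Matrix.mul_apply, e1, e2] at h1
    exact h1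
  refine ⟨fun a ha => ?_, fun c hc => ?_, ?_⟩
  · have := key a 1
    simpa [ha] using this
  · have := key 0 c
    simpa [hc] using (this.symm)
  · have := key 0 1
    simpa using this

/-- The block of a matrix. -/
def blk (M : M5) : Matrix (Fin 3) (Fin 3) (ZMod 2) := fun a c => M (ι3 a) (ι3 c)

theorem blk_mul {M N : M5} (hM : ∀ a, a ≠ 0 → M a 0 = 0) (hN : ∀ c, c ≠ 1 → N 1 c = 0) : blk (M * N) = blk M * blk N := by
  ext a c
  simp only [blk, Matrix.mul_apply]
  rw [Fin.sum_univ_five, Fin.sum_univ_three, hM _ (ι3_ne0 a), hN _ (ι3_ne1 c)]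
  simp only [zero_mul, mul_zero, zero_add]
  rfl

theorem blk_one : blk (1 : M5) = 1 := by
  ext a c
  simp only [blk, Matrix.one_apply]
  have : ι3 a = ι3 c ↔ a = c := by
    revert a c
    decide
  simp [this]

theorem zmod2_one_of_ne {a : ZMod 2} (h : a ≠ 0) : a = 1 := by
  revert a
  decide

section X

variable (s : SL5) (hs : (s : M5) = Matrix.transvection 0 1 1)

/-- The centralizer of the transvection. -/
abbrev X := Subgroup.centralizer ({s} : Set SL5)

include hs

theorem X_comm (x : X s) : ((x : SL5) : M5) * Matrix.transvection 0 1 1 = Matrix.transvection 0 1 1 * ((x : SL5) : M5) := by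
  have h1 := Subgroup.mem_centralizer_iff.mp x.2 s rfl
  have h2 := congrArg (fun y : SL5 => (y : M5)) h1
  simp only [Matrix.SpecialLinearGroup.coe_mul, hs] at h2
  exact h2.symm

theorem X_entries (x : X s) : (∀ a, a ≠ 0 → ((x : SL5) : M5) a 0 = 0) ∧ (∀ c, c ≠ 1 → ((x : SL5) : M5) 1 c = 0) ∧
    ((x : SL5) : M5) 0 0 = 1 ∧ ((x : SL5) : M5) 1 1 = 1 := by
  obtain ⟨h1, h2, h3⟩ := comm_entries (X_comm s hs x)
  have h4 : ((x : SL5) : M5) 0 0 = 1 := by
    apply zmod2_one_of_ne
    intro h0
    have h5 : (((x : SL5)⁻¹ : SL5) : M5) * ((x : SL5) : M5) = 1 := by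
      rw [← Matrix.SpecialLinearGroup.coe_mul, inv_mul_cancel, Matrix.SpecialLinearGroup.coe_one]
    have h6 := congrFun (congrFun h5 0) 0
    rw [Matrix.mul_apply, Finset.sum_eq_zero] at h6
    · simp at h6
    · intro d _
      by_cases hd : d = 0
      · rw [hd, h0, mul_zero]
      · rw [h1 d hd, mul_zero]
  exact ⟨h1, h2, h4, h3 ▸ h4⟩

/-- The block as a unit. -/
noncomputable def blkU (x : X s) : Matrix.GeneralLinearGroup (Fin 3) (ZMod 2) where
  val := blk ((x : SL5) : M5)
  inv := blk (((x⁻¹ : X s) : SL5) : M5)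
  val_inv := by
    rw [← blk_mul (X_entries s hs x).1 (X_entries s hs x⁻¹).2.1, ← Matrix.SpecialLinearGroup.coe_mul, ← Subgroup.coe_mul,
      mul_inv_cancel]
    exact blk_one
  inv_val := by
    rw [← blk_mul (X_entries s hs x⁻¹).1 (X_entries s hs x).2.1, ← Matrix.SpecialLinearGroup.coe_mul, ← Subgroup.coe_mul,
      inv_mul_cancel]
    exact blk_one

/-- The parameters of an element. -/
noncomputable def param (x : X s) : (Fin 4 → ZMod 2) × (Fin 3 → ZMod 2) × Matrix.GeneralLinearGroup (Fin 3) (ZMod 2) :=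
  (fun i => ((x : SL5) : M5) 0 i.succ, fun i => ((x : SL5) : M5) (ι3 i) 1, blkU s hs x)

theorem param_inj : Function.Injective (param s hs) := by
  intro x y h
  simp only [param, Prod.mk.injEq] at h
  obtain ⟨h1, h2, h3⟩ := h
  obtain ⟨x1, x2, x3, x4⟩ := X_entries s hs x
  obtain ⟨y1, y2, y3, y4⟩ := X_entries s hs y
  have h5 : blk ((x : SL5) : M5) = blk ((y : SL5) : M5) := congrArg Units.val h3
  apply Subtype.ext
  apply Subtype.ext
  ext a c
  rcases cases5 a with rfl | rfl | ⟨i, rfl⟩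
  · rcases Fin.eq_zero_or_eq_succ c with rfl | ⟨d, rfl⟩
    · rw [x3, y3]
    · exact congrFun h1 d
  · by_cases hc : c = 1
    · rw [hc, x4, y4]
    · rw [x2 c hc, y2 c hc]
  · rcases cases5 c with rfl | rfl | ⟨d, rfl⟩
    · rw [x1 _ (ι3_ne0 i), y1 _ (ι3_ne0 i)]
    · exact congrFun h2 i
    · exact congrFun (congrFun h5 i) d

theorem card_X_le : Nat.card (X s) ≤ 21504 := by
  have h1 := Nat.card_le_card_of_injective _ (param_inj s hs)
  have h2 : Nat.card ((Fin 4 → ZMod 2) × (Fin 3 → ZMod 2) × Matrix.GeneralLinearGroup (Fin 3) (ZMod 2)) = 21504 := by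
    rw [Nat.card_prod, Nat.card_prod, Matrix.card_GL_field (𝔽 := ZMod 2) 3, ZMod.card, Fin.prod_univ_three]
    simp only [Nat.card_eq_fintype_card, Fintype.card_fun, ZMod.card, Fintype.card_fin]
    norm_num
  omega

end X


/-! ### The matrices of the generators -/

/-- The matrices by number. -/
def Mm : ℕ → M5
  | 0 => M0
  | _ => M1

/-- The inverse matrices by number. -/
def Mi : ℕ → M5
  | 0 => Mi0
  | _ => Mi1

theorem Mm_inv (i : ℕ) : Mm i * Mi i = 1 := by
  cases i with
  | zero => exact M_chk.1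
  | succ n => exact M_chk.2.2.1

theorem Mm_comm (i : ℕ) : Mm i * Matrix.transvection 0 1 1 = Matrix.transvection 0 1 1 * Mm i := by
  cases i with
  | zero => exact M_comm.1
  | succ n => exact M_comm.2

theorem det_one_of {M N : M5} (h : M * N = 1) : M.det = 1 := by
  apply zmod2_one_of_ne
  intro h0
  have h1 := congrArg Matrix.det h
  rw [Matrix.det_mul, h0, zero_mul, Matrix.det_one] at h1
  exact zero_ne_one h1

theorem M_act {i : ℕ} (hi : i < 2) {v : ℕ} (hv : v < 32) : vec (act i v) = Matrix.mulVec (Mm i) (vec v) := by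
  have h := M_vec ⟨v, hv⟩
  interval_cases i
  · exact h.1
  · exact h.2

theorem vec_inj' {v w : ℕ} (hv : v < 32) (hw : w < 32) (h : vec v = vec w) : v = w :=
  congrArg Fin.val (vec_inj ⟨v, hv⟩ ⟨w, hw⟩ h)

theorem mul_col {i : ℕ} (hi : i < 2) {N : M5} {c : Fin 5} {v : ℕ} (hv : v < 32) (h : (fun a => N a c) = vec v) :
    (fun a => (Mm i * N) a c) = vec (act i v) := by
  rw [M_act hi hv, ← h]
  rfl

theorem col_lt {k c : ℕ} (hk : k < 21504) (hc : c < 5) : colK k c < 32 :=
  Nat.le_of_ble_eq_true (allB_spec _ _ _ (by norm_num) (allB_spec _ _ _ (by norm_num) col_lt_chk k hk) c hc)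

section Main

/-- The matrix of a generator, in the special linear group. -/
noncomputable def Ms (i : ℕ) : SL5 := ⟨Mm i, det_one_of (Mm_inv i)⟩

theorem Ms_mem (s : SL5) (hs : (s : M5) = Matrix.transvection 0 1 1) (i : ℕ) : Ms i ∈ X s := by
  rw [Subgroup.mem_centralizer_iff]
  intro y hy
  have hy' : y = s := hy
  rw [hy']
  apply Subtype.ext
  show (s : M5) * Mm i = Mm i * (s : M5)
  rw [hs]
  exact (Mm_comm i).symm

/-- The generators on the side of the linear group. -/
noncomputable def Mc (s : SL5) (hs : (s : M5) = Matrix.transvection 0 1 1) (i : ℕ) : X s := ⟨Ms i, Ms_mem s hs i⟩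

/-- The elements on the side of the linear group. -/
noncomputable def F (s : SL5) (hs : (s : M5) = Matrix.transvection 0 1 1) (k : ℕ) : X s := tr (Mc s hs) PK GK k

variable (s : SL5) (hs : (s : M5) = Matrix.transvection 0 1 1)

theorem F_col : ∀ k, k < 21504 → ∀ c : Fin 5, (fun a => ((F s hs k : SL5) : M5) a c) = vec (colK k c.val) := by
  intro k
  induction k using Nat.strong_induction_on with
  | _ k ih =>
    intro hk c
    rcases Nat.eq_zero_or_pos k with rfl | h0
    · have e : F s hs 0 = 1 := tr_zero _ _ _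
      rw [e, (K0_spec c.2).2, vec_single]
      funext a
      show (1 : M5) a c = _
      rw [Matrix.one_apply, Pi.single_apply]
    · obtain ⟨h1, h2, h3⟩ := PK_spec h0 hk
      have e : F s hs k = Mc s hs (GK k) * F s hs (PK k) := tr_step _ _ _ k h0 h1
      have e2 : ((F s hs k : SL5) : M5) = Mm (GK k) * ((F s hs (PK k) : SL5) : M5) := by
        rw [e]
        rfl
      have hp : PK k < 21504 := by omega
      rw [e2, mul_col h2 (col_lt hp c.2) (ih _ h1 hp c), ← (KL_spec h2 hp).2.2 c c.2, h3]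

theorem hLF {i k : ℕ} (hi : i < 2) (hk : k < 21504) : Mc s hs i * F s hs k = F s hs (LK i k) := by
  apply Subtype.ext
  apply Subtype.ext
  obtain ⟨h1, -, h3⟩ := KL_spec hi hk
  ext a c
  have h4 := mul_col hi (col_lt hk c.2) (F_col s hs k hk c)
  rw [← h3 c c.2, ← F_col s hs _ h1 c] at h4
  exact congrFun h4 a

theorem F_inj {a b : ℕ} (ha : a < 21504) (hb : b < 21504) (h : F s hs a = F s hs b) : a = b := by
  apply code2_inj ha hb
  have e : ∀ c, c < 5 → colK a c = colK b c := by
    intro c hc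
    apply vec_inj' (col_lt ha hc) (col_lt hb hc)
    have h1 := F_col s hs a ha ⟨c, hc⟩
    have h2 := F_col s hs b hb ⟨c, hc⟩
    rw [h] at h1
    exact h1.symm.trans h2
  unfold code2
  rw [e 0 (by norm_num), e 1 (by norm_num), e 2 (by norm_num), e 3 (by norm_num), e 4 (by norm_num)]

theorem F_surj (x : X s) : ∃ k, k < 21504 ∧ F s hs k = x := by
  let f : Fin 21504 → X s := fun k => F s hs k
  have hf : Function.Injective f := fun a b hab => Fin.ext (F_inj s hs a.2 b.2 hab)
  have hb : Function.Bijective f := Function.Injective.bijective_of_nat_card_le hf (by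
    rw [Nat.card_eq_fintype_card (α := Fin 21504), Fintype.card_fin]
    exact card_X_le s hs)
  obtain ⟨k, hk⟩ := hb.2 x
  exact ⟨k, k.2, hk⟩

include hs in
theorem main : ∃ z : Cfsg.Spor.He, orderOf z = 2 ∧
    Nonempty (↥(Subgroup.centralizer ({z} : Set Cfsg.Spor.He)) ≃* ↥(Subgroup.centralizer ({s} : Set SL5))) := by
  refine ⟨τ, τ_order, ?_⟩
  exact iso_of_tables (g := gC) (m := Mc s hs) (P := PK) (Gn := GK) (L := LK) (N := 21504) 2
    (fun k h0 hk => ⟨(PK_spec h0 hk).1, (PK_spec h0 hk).2.1⟩)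
    (fun i k hi hk => (KL_spec hi hk).1) (fun i k hi hk => hLE hi hk) (fun i k hi hk => hLF s hs hi hk)
    (fun k k' hk hk' h => E_inj hk hk' h) (fun k k' hk hk' h => F_inj s hs hk hk' h) E_surj (F_surj s hs)

end Main

end Cfsg.Agent.Lib.HeCent
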