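import Mathlib

/-!
# Dimension bounds for an element of prime order acting nontrivially on a `q`-group

If `y` of prime order `s` normalizes but does not centralize a `q`-subgroup of a faithful linear
group in characteristic different from `q`, then `s ≤ dim + 1`.
-/

set_option autoImplicit false
set_option linter.style.haveILetI false
set_option linter.unusedSectionVars false

open Module
open scoped commutatorElement

namespace Cfsg.Agent.Lib.HeisBound

section Eigen

variable {K W : Type*} [Field K] [AddCommGroup W] [Module K W]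

/-- Eigenvectors with pairwise distinct characters are linearly independent. -/
theorem linInd_of_chars {X ι : Type*} [Monoid X] (ρ : X →* Module.End K W) (μ : ι → (X →* K))
    (hμ : Function.Injective μ) (v : ι → W) (hv : ∀ i, v i ≠ 0)
    (h : ∀ i x, ρ x (v i) = μ i x • v i) : LinearIndependent K v := by
  classical
  rw [linearIndependent_iff']
  intro t c hc j hj
  by_contra hcj
  obtain ⟨φ, hφ⟩ : ∃ φ : Module.Dual K W, φ (v j) ≠ 0 := by
    by_contra hcon
    push Not at hcon
    exact hv j ((Module.forall_dual_apply_eq_zero_iff K (v j)).mp hcon)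
  have hD := (linearIndependent_monoidHom X K).comp μ hμ
  rw [linearIndependent_iff'] at hD
  have := hD t (fun i => c i * φ (v i)) ?_ j hj
  · exact (mul_ne_zero hcj hφ) this
  · funext x
    have h1 : ρ x (∑ i ∈ t, c i • v i) = 0 := by rw [hc, map_zero]
    rw [map_sum] at h1
    have h2 : φ (∑ i ∈ t, ρ x (c i • v i)) = 0 := by rw [h1, map_zero]
    rw [map_sum] at h2
    simp only [Finset.sum_apply, Pi.smul_apply, Function.comp_apply, smul_eq_mul, Pi.zero_apply]
    rw [← h2]
    refine Finset.sum_congr rfl fun i _ => ?_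
    rw [map_smul, h, map_smul, map_smul, smul_eq_mul, smul_eq_mul]
    ring

/-- A common eigenvector for a commuting family on an invariant subspace. -/
theorem common_eigen [IsAlgClosed K] [FiniteDimensional K W] {X : Type*} [Monoid X]
    (ρ : X →* Module.End K W) (hc : ∀ a b, ρ a * ρ b = ρ b * ρ a) (U : Submodule K W) (hU : U ≠ ⊥)
    (hinv : ∀ a, ∀ u ∈ U, ρ a u ∈ U) :
    ∃ v ∈ U, v ≠ 0 ∧ ∃ μ : X →* K, ∀ a, ρ a v = μ a • v := by
  classical
  induction hn : finrank K U using Nat.strong_induction_on generalizing U with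
  | _ n ih =>
    by_cases hs : ∀ a, ∃ c : K, ∀ u ∈ U, ρ a u = c • u
    · obtain ⟨v, hvU, hv0⟩ := Submodule.exists_mem_ne_zero_of_ne_bot hU
      choose c hc' using hs
      refine ⟨v, hvU, hv0, ⟨⟨c, ?_⟩, ?_⟩, fun a => hc' a v hvU⟩
      · have h1 := hc' 1 v hvU
        rw [map_one, Module.End.one_apply] at h1
        have h2 : (c 1 - 1) • v = 0 := by rw [sub_smul, one_smul, ← h1, sub_self]
        rcases smul_eq_zero.mp h2 with h3 | h3
        · exact sub_eq_zero.mp h3
        · exact absurd h3 hv0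
      · intro a b
        have h1 := hc' (a * b) v hvU
        rw [map_mul, Module.End.mul_apply, hc' b v hvU, map_smul, hc' a v hvU, smul_smul] at h1
        have h2 : (c (a * b) - c b * c a) • v = 0 := by rw [sub_smul, ← h1, sub_self]
        rcases smul_eq_zero.mp h2 with h3 | h3
        · show c (a * b) = c a * c b
          rw [mul_comm]; exact sub_eq_zero.mp h3
        · exact absurd h3 hv0
    · push Not at hs
      obtain ⟨a, ha⟩ := hs
      haveI : Nontrivial U := Submodule.nontrivial_iff_ne_bot.mpr hU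
      let T : Module.End K U := (ρ a).restrict (hinv a)
      obtain ⟨c, hc0⟩ := Module.End.exists_eigenvalue T
      obtain ⟨w, hw⟩ := hc0.exists_hasEigenvector
      have hwU : (w : W) ∈ U := w.2
      have hwT : ρ a (w : W) = c • (w : W) := by
        have := congrArg Subtype.val hw.apply_eq_smul
        simpa [T] using this
      have hw0 : (w : W) ≠ 0 := by
        intro h0
        exact hw.2 (Subtype.ext h0)
      let U' : Submodule K W := U ⊓ Module.End.eigenspace (ρ a) c
      have hU'ne : U' ≠ ⊥ := by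
        intro h0
        have : (w : W) ∈ U' := ⟨hwU, Module.End.mem_eigenspace_iff.mpr hwT⟩
        rw [h0] at this
        exact hw0 ((Submodule.mem_bot K).mp this)
      have hU'inv : ∀ b, ∀ u ∈ U', ρ b u ∈ U' := by
        intro b u hu
        refine ⟨hinv b u hu.1, Module.End.mem_eigenspace_iff.mpr ?_⟩
        have h1 := Module.End.mem_eigenspace_iff.mp hu.2
        have h2 := congrArg (fun f => f u) (hc a b)
        simp only [Module.End.mul_apply] at h2
        rw [h2, h1, map_smul]
      have hlt : U' < U := by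
        refine lt_of_le_of_ne inf_le_left fun heq => ?_
        obtain ⟨u, hu, hne⟩ := ha c
        have : u ∈ U' := heq ▸ hu
        exact hne (Module.End.mem_eigenspace_iff.mp this.2)
      have hfin := Submodule.finrank_lt_finrank_of_lt hlt
      obtain ⟨v, hv, hv0, hμ⟩ := ih (finrank K U') (hn ▸ hfin) U' hU'ne hU'inv rfl
      exact ⟨v, hv.1, hv0, hμ⟩

/-- A common eigenvector on which a given element of order prime to the characteristic
acts nontrivially. -/
theorem exists_char_ne_one [IsAlgClosed K] [FiniteDimensional K W] {X : Type*} [Monoid X]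
    (ρ : X →* Module.End K W) (hc : ∀ a b, ρ a * ρ b = ρ b * ρ a) (x : X) (m : ℕ) (hm : x ^ m = 1)
    (hmK : (m : K) ≠ 0) (hx : ρ x ≠ 1) :
    ∃ v : W, v ≠ 0 ∧ ∃ μ : X →* K, (∀ a, ρ a v = μ a • v) ∧ μ x ≠ 1 := by
  classical
  set T : Module.End K W := ρ x with hT
  have hTm : T ^ m = 1 := by rw [hT, ← map_pow, hm, map_one]
  let S : Module.End K W := ∑ i ∈ Finset.range m, T ^ i
  have hST : (T - 1) * S = 0 := by
    have : (T - 1) * S = T ^ m - 1 := mul_geom_sum T m
    rw [this, hTm, sub_self]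
  have hU : LinearMap.ker S ≠ ⊥ := by
    intro h0
    have hinj : Function.Injective S := LinearMap.ker_eq_bot.mp h0
    have hsurj : Function.Surjective S := LinearMap.injective_iff_surjective.mp hinj
    apply hx
    ext w
    obtain ⟨w', rfl⟩ := hsurj w
    have := congrArg (fun f => f w') hST
    simp only [Module.End.mul_apply, LinearMap.sub_apply, Module.End.one_apply, LinearMap.zero_apply,
      sub_eq_zero] at this
    rw [this]; rfl
  have hcS : ∀ a, ρ a * S = S * ρ a := by
    intro a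
    have hT' : Commute (ρ a) T := hc a x
    have : Commute (ρ a) S := by
      apply Commute.sum_right
      intro i _
      exact hT'.pow_right i
    exact this
  obtain ⟨v, hvU, hv0, μ, hμ⟩ := common_eigen ρ hc (LinearMap.ker S) hU (by
    intro a u hu
    rw [LinearMap.mem_ker] at hu ⊢
    have := congrArg (fun f => f u) (hcS a)
    simp only [Module.End.mul_apply] at this
    rw [← this, hu, map_zero])
  refine ⟨v, hv0, μ, hμ, fun h1 => ?_⟩
  have hTv : T v = v := by rw [hT, hμ, h1, one_smul]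
  have hpow : ∀ i : ℕ, (T ^ i) v = v := by
    intro i
    induction i with
    | zero => simp
    | succ i ih => rw [pow_succ, Module.End.mul_apply, hTv, ih]
  have hSv : S v = (m : K) • v := by
    simp only [S, LinearMap.sum_apply, hpow, Finset.sum_const, Finset.card_range]
    rw [Nat.cast_smul_eq_nsmul]
  rw [LinearMap.mem_ker, hSv] at hvU
  rcases smul_eq_zero.mp hvU with h | h
  · exact hmK h
  · exact hv0 h

/-- A finite set of monoid homomorphisms trivial on a normal subgroup has at most as many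
elements as the index. -/
theorem card_le_index {X S : Type*} [Group X] [Finite X] (N : Subgroup X) [N.Normal] [Finite S]
    (f : S → (X →* K)) (hf : Function.Injective f) (hN : ∀ s, ∀ n ∈ N, f s n = 1) :
    Nat.card S ≤ N.index := by
  classical
  haveI : Fintype S := Fintype.ofFinite S
  haveI : Fintype (X ⧸ N) := Fintype.ofFinite _
  let g : S → ((X ⧸ N) →* K) := fun s => QuotientGroup.lift N (f s) (hN s)
  have hg : Function.Injective g := by
    intro s t hst
    apply hf
    ext x
    have := DFunLike.congr_fun hst (x : X ⧸ N)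
    simp only [g] at this
    exact this
  have hLI := (linearIndependent_monoidHom (X ⧸ N) K).comp g hg
  have := hLI.fintype_card_le_finrank
  rw [Module.finrank_fintype_fun_eq_card] at this
  rw [Nat.card_eq_fintype_card, Subgroup.index_eq_card, Nat.card_eq_fintype_card]
  exact this


/-- The Heisenberg bound.  `Q` has commutators in a central subgroup `Z`, a character `lam` of `Z`
appears on `W`, and the commutator pairing with values `lam` has radical `Z`.  Then the index of
`Z` is a square `d ^ 2` with `d` at most the dimension. -/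
theorem heisenberg [IsAlgClosed K] [FiniteDimensional K W] {Q : Type*} [Group Q] [Finite Q]
    (ρ : Q →* Module.End K W) (Z : Subgroup Q) (hZ : ∀ c ∈ Z, ∀ g, c * g = g * c)
    (hcomm : ∀ a b : Q, ⁅a, b⁆ ∈ Z) (lam : Z →* K) (v0 : W) (hv0 : v0 ≠ 0)
    (hlam : ∀ c : Z, ρ (c : Q) v0 = lam c • v0)
    (hrad : ∀ a, (∀ b, lam ⟨⁅a, b⁆, hcomm a b⟩ = 1) → a ∈ Z) :
    ∃ d : ℕ, Z.index = d ^ 2 ∧ d ≤ finrank K W := by
  classical
  have hZc : ∀ c ∈ Z, ∀ g : Q, g * c * g⁻¹ = c := fun c hc g => by
    rw [← hZ c hc g, mul_inv_cancel_right]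
  have hmul1 : ∀ a a' b : Q, ⁅a * a', b⁆ = ⁅a', b⁆ * ⁅a, b⁆ := by
    intro a a' b
    have : ⁅a * a', b⁆ = a * ⁅a', b⁆ * a⁻¹ * ⁅a, b⁆ := by
      simp only [commutatorElement_def]; group
    rw [this, hZc _ (hcomm a' b)]
  have hmul2 : ∀ a b b' : Q, ⁅a, b * b'⁆ = ⁅a, b⁆ * ⁅a, b'⁆ := by
    intro a b b'
    have : ⁅a, b * b'⁆ = ⁅a, b⁆ * (b * ⁅a, b'⁆ * b⁻¹) := by
      simp only [commutatorElement_def]; group
    rw [this, hZc _ (hcomm a b')]
  -- the pairing
  let B : Q → Q → K := fun a b => lam ⟨⁅a, b⁆, hcomm a b⟩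
  have hB1 : ∀ a a' b, B (a * a') b = B a b * B a' b := by
    intro a a' b
    have h1 : (⟨⁅a * a', b⁆, hcomm _ _⟩ : Z) = ⟨⁅a', b⁆, hcomm _ _⟩ * ⟨⁅a, b⁆, hcomm _ _⟩ :=
      Subtype.ext (hmul1 a a' b)
    show lam _ = lam _ * lam _
    rw [h1, map_mul, mul_comm]
  have hB2 : ∀ a b b', B a (b * b') = B a b * B a b' := by
    intro a b b'
    have h1 : (⟨⁅a, b * b'⁆, hcomm _ _⟩ : Z) = ⟨⁅a, b⁆, hcomm _ _⟩ * ⟨⁅a, b'⁆, hcomm _ _⟩ :=
      Subtype.ext (hmul2 a b b')
    show lam _ = lam _ * lam _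
    rw [h1, map_mul]
  have hBeq : ∀ a b, ⁅a, b⁆ = 1 → B a b = 1 := by
    intro a b h
    have h1 : (⟨⁅a, b⁆, hcomm _ _⟩ : Z) = 1 := Subtype.ext h
    show lam _ = 1
    rw [h1, map_one]
  have hBaa : ∀ a, B a a = 1 := fun a => hBeq a a (commutatorElement_self a)
  have hB1a : ∀ a, B 1 a = 1 := fun a => hBeq 1 a (commutatorElement_one_left a)
  have hBa1 : ∀ a, B a 1 = 1 := fun a => hBeq a 1 (commutatorElement_one_right a)
  have hBZ : ∀ c ∈ Z, ∀ b, B c b = 1 := by
    intro c hc b
    apply hBeq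
    rw [commutatorElement_def, hZ c hc b]
    group
  have hBswap : ∀ a b, B a b * B b a = 1 := by
    intro a b
    have h1 : (⟨⁅a, b⁆, hcomm a b⟩ : Z) * ⟨⁅b, a⁆, hcomm b a⟩ = 1 := by
      apply Subtype.ext
      show ⁅a, b⁆ * ⁅b, a⁆ = 1
      rw [← commutatorElement_inv, inv_mul_cancel]
    show lam _ * lam _ = 1
    rw [← map_mul, h1, map_one]
  have hBinvl : ∀ a b, B a⁻¹ b * B a b = 1 := by
    intro a b
    rw [← hB1, inv_mul_cancel, hB1a]
  have hBinvr : ∀ a b, B a b⁻¹ * B a b = 1 := by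
    intro a b
    rw [← hB2, inv_mul_cancel, hBa1]
  have hBne : ∀ a b, B a b ≠ 0 := fun a b h => by
    have := hBswap a b
    rw [h, zero_mul] at this
    exact zero_ne_one this
  -- maximal isotropic subgroup
  let P : Set (Subgroup Q) := {A | Z ≤ A ∧ ∀ a ∈ A, ∀ b ∈ A, B a b = 1}
  have hPZ : Z ∈ P := ⟨le_rfl, fun a ha b _ => hBZ a ha b⟩
  obtain ⟨A, hZA, hAmax⟩ := Set.Finite.exists_le_maximal (Set.toFinite P) hPZ
  have hAiso : ∀ a ∈ A, ∀ b ∈ A, B a b = 1 := hAmax.prop.2
  -- perp subgroups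
  let perp : Set Q → Subgroup Q := fun S =>
    { carrier := {x | ∀ s ∈ S, B s x = 1}
      mul_mem' := fun {x y} hx hy s hs => by rw [hB2, hx s hs, hy s hs, one_mul]
      one_mem' := fun s _ => hBa1 s
      inv_mem' := fun {x} hx s hs => by
        have := hBinvr s x
        rw [hx s hs, mul_one] at this
        exact this }
  have hsym : ∀ a b, B a b = 1 → B b a = 1 := by
    intro a b h
    have := hBswap a b
    rwa [h, one_mul] at this
  have hperp : ∀ b, (∀ a ∈ A, B a b = 1) → b ∈ A := by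
    intro b hb
    let T : Subgroup Q := A ⊔ Subgroup.zpowers b
    have h1 : T ≤ perp (A ∪ {b}) := by
      refine sup_le ?_ ?_
      · intro a ha s hs
        rcases hs with hs | hs
        · exact hAiso s hs a ha
        · rw [Set.mem_singleton_iff] at hs
          subst hs
          exact hsym _ _ (hb a ha)
      · rw [Subgroup.zpowers_le]
        intro s hs
        rcases hs with hs | hs
        · exact hb s hs
        · rw [Set.mem_singleton_iff] at hs
          subst hs
          exact hBaa _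
    have h2 : ∀ t ∈ T, T ≤ perp {t} := by
      intro t ht
      refine sup_le ?_ ?_
      · intro a ha s hs
        rw [Set.mem_singleton_iff] at hs
        subst hs
        exact hsym _ _ (h1 ht a (Or.inl ha))
      · rw [Subgroup.zpowers_le]
        intro s hs
        rw [Set.mem_singleton_iff] at hs
        subst hs
        exact hsym _ _ (h1 ht b (Or.inr rfl))
    have hPT : T ∈ P := ⟨hAmax.prop.1.trans le_sup_left, fun a ha c hc => h2 a ha hc a rfl⟩
    have hTA : T ≤ A := hAmax.le_of_ge hPT le_sup_left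
    exact hTA (Subgroup.mem_sup_right (Subgroup.mem_zpowers b))
  haveI hAn : A.Normal := ⟨fun a ha g => by
    have h1 : g * a * g⁻¹ = ⁅g, a⁆ * a := by simp only [commutatorElement_def]; group
    rw [h1]
    exact A.mul_mem (hAmax.prop.1 (hcomm g a)) ha⟩
  haveI hZn : (Z.subgroupOf A).Normal := ⟨fun c hc g => by
    rw [Subgroup.mem_subgroupOf] at hc ⊢
    have := hZc _ hc (g : Q)
    simpa [this] using hc⟩
  -- first index inequality
  let homA : Q → (A →* K) := fun b =>
    { toFun := fun a => B a b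
      map_one' := hB1a b
      map_mul' := fun a a' => hB1 a a' b }
  have hidx1 : A.index ≤ (Z.subgroupOf A).index := by
    rw [Subgroup.index_eq_card A]
    refine card_le_index (Z.subgroupOf A) (fun c : Q ⧸ A => homA c.out) ?_ ?_
    · intro c c' hcc
      rw [← QuotientGroup.out_eq' c, ← QuotientGroup.out_eq' c', QuotientGroup.eq]
      apply hperp
      intro a ha
      have h1 := DFunLike.congr_fun hcc ⟨a, ha⟩
      change B a c.out = B a c'.out at h1
      rw [hB2, ← h1]
      exact hBinvr _ _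
    · intro c n hn
      exact hBZ _ hn _
  let homQ : A → (Q →* K) := fun a =>
    { toFun := fun b => B a b
      map_one' := hBa1 a
      map_mul' := fun b b' => hB2 a b b' }
  have hidx2 : (Z.subgroupOf A).index ≤ A.index := by
    rw [Subgroup.index_eq_card (Z.subgroupOf A)]
    refine card_le_index A (fun c : A ⧸ Z.subgroupOf A => homQ c.out) ?_ ?_
    · intro c c' hcc
      rw [← QuotientGroup.out_eq' c, ← QuotientGroup.out_eq' c', QuotientGroup.eq,
        Subgroup.mem_subgroupOf]
      apply hrad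
      intro b
      have h1 := DFunLike.congr_fun hcc b
      change B (c.out : Q) b = B (c'.out : Q) b at h1
      show B _ _ = 1
      rw [Subgroup.coe_mul, Subgroup.coe_inv, hB1, ← h1]
      exact hBinvl _ _
    · intro c n hn
      exact hAiso _ c.out.2 _ hn
  have hidx : (Z.subgroupOf A).index = A.index := le_antisymm hidx2 hidx1
  refine ⟨A.index, ?_, ?_⟩
  · have := Subgroup.relIndex_mul_index hZA
    rw [Subgroup.relIndex, hidx] at this
    rw [← this, sq]
  -- eigenvectors
  let U : Submodule K W :=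
    { carrier := {w | ∀ c : Z, ρ (c : Q) w = lam c • w}
      add_mem' := fun {x y} hx hy c => by rw [map_add, hx c, hy c, smul_add]
      zero_mem' := fun c => by simp
      smul_mem' := fun r x hx c => by rw [map_smul, hx c, smul_comm] }
  have hv0U : v0 ∈ U := hlam
  have hUinv : ∀ g : Q, ∀ u ∈ U, ρ g u ∈ U := by
    intro g u hu c
    have h1 : (c : Q) * g = g * c := hZ _ c.2 g
    rw [← Module.End.mul_apply, ← map_mul, h1, map_mul, Module.End.mul_apply, hu c, map_smul]
  have hUne : U ≠ ⊥ := by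
    intro h0
    have : v0 ∈ (⊥ : Submodule K W) := h0 ▸ hv0U
    exact hv0 ((Submodule.mem_bot K).mp this)
  let ρU : A →* Module.End K U :=
    { toFun := fun a => (ρ (a : Q)).restrict (hUinv a)
      map_one' := by
        ext w
        simp
      map_mul' := fun a a' => by
        ext w
        simp }
  have hρUc : ∀ a a', ρU a * ρU a' = ρU a' * ρU a := by
    intro a a'
    ext w
    show ρ (a : Q) (ρ (a' : Q) (w : W)) = ρ (a' : Q) (ρ (a : Q) (w : W))
    have h1 : (a : Q) * a' = ⁅(a : Q), (a' : Q)⁆ * (a' * a) := by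
      simp only [commutatorElement_def]; group
    rw [← Module.End.mul_apply, ← map_mul, h1, map_mul, Module.End.mul_apply]
    have h2 : ρ ((a' : Q) * a) (w : W) ∈ U := hUinv _ _ w.2
    rw [h2 ⟨_, hcomm _ _⟩]
    show B (a : Q) (a' : Q) • _ = _
    rw [hAiso _ a.2 _ a'.2, one_smul, map_mul, Module.End.mul_apply]
  haveI : Nontrivial U := Submodule.nontrivial_iff_ne_bot.mpr hUne
  obtain ⟨v, -, hv, μ, hμ⟩ := common_eigen ρU hρUc ⊤ top_ne_bot (fun _ _ _ => trivial)
  have hμ' : ∀ a : A, ρ (a : Q) (v : W) = μ a • (v : W) := by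
    intro a
    have := congrArg Subtype.val (hμ a)
    simpa [ρU] using this
  have hvW : (v : W) ≠ 0 := fun h => hv (Subtype.ext h)
  have hμne : ∀ a, μ a ≠ 0 := by
    intro a h0
    have h1 : μ a * μ a⁻¹ = 1 := by rw [← map_mul, mul_inv_cancel, map_one]
    rw [h0, zero_mul] at h1
    exact zero_ne_one h1
  have hμZ : ∀ (c : Q) (hc : c ∈ Z), μ ⟨c, hZA hc⟩ = lam ⟨c, hc⟩ := by
    intro c hc
    have h1 := hμ' ⟨c, hZA hc⟩
    have h2 := (v.2 : (v : W) ∈ U) ⟨c, hc⟩
    simp only at h1 h2
    rw [h1] at h2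
    have h3 : (μ ⟨c, hZA hc⟩ - lam ⟨c, hc⟩) • (v : W) = 0 := by rw [sub_smul, h2, sub_self]
    rcases smul_eq_zero.mp h3 with h4 | h4
    · exact sub_eq_zero.mp h4
    · exact absurd h4 hvW
  -- the conjugate characters
  let χ : Q → (A →* K) := fun b => μ.comp (MulAut.conjNormal (H := A) b⁻¹).toMonoidHom
  have hχ : ∀ (b : Q) (a : A), χ b a = μ a * B (a : Q)⁻¹ b⁻¹ := by
    intro b a
    have h1 : (b⁻¹ * (a : Q) * b) = a * ⁅(a : Q)⁻¹, b⁻¹⁆ := by
      simp only [commutatorElement_def]; group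
    have h2 : (MulAut.conjNormal (H := A) b⁻¹) a =
        a * (⟨⁅(a : Q)⁻¹, b⁻¹⁆, hZA (hcomm _ _)⟩ : A) := by
      apply Subtype.ext
      rw [MulAut.conjNormal_apply, inv_inv]
      exact h1
    show μ ((MulAut.conjNormal (H := A) b⁻¹) a) = _
    rw [h2, map_mul, hμZ _ (hcomm _ _)]
  have hχv : ∀ (b : Q) (a : A), ρ (a : Q) (ρ b (v : W)) = χ b a • ρ b (v : W) := by
    intro b a
    have h1 : (a : Q) * b = b * ((MulAut.conjNormal (H := A) b⁻¹) a : A) := by
      rw [MulAut.conjNormal_apply, inv_inv]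
      group
    rw [← Module.End.mul_apply, ← map_mul, h1, map_mul, Module.End.mul_apply, hμ', map_smul]
    rfl
  have hvb : ∀ b : Q, ρ b (v : W) ≠ 0 := by
    intro b h0
    apply hvW
    have h1 : ρ b⁻¹ (ρ b (v : W)) = (v : W) := by
      rw [← Module.End.mul_apply, ← map_mul, inv_mul_cancel, map_one, Module.End.one_apply]
    rw [← h1, h0, map_zero]
  have hχinj : Function.Injective fun c : Q ⧸ A => χ c.out := by
    intro c c' hcc
    rw [← QuotientGroup.out_eq' c, ← QuotientGroup.out_eq' c', QuotientGroup.eq]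
    apply hperp
    intro a ha
    have h1 := DFunLike.congr_fun hcc ⟨a⁻¹, A.inv_mem ha⟩
    simp only [hχ] at h1
    have h2 := mul_left_cancel₀ (hμne _) h1
    simp only [inv_inv] at h2
    rw [hB2, h2]
    exact hBinvr _ _
  have hLI := linInd_of_chars (ρ.comp A.subtype) (fun c : Q ⧸ A => χ c.out) hχinj
    (fun c => ρ c.out (v : W)) (fun c => hvb _) (fun c a => hχv c.out a)
  haveI : Fintype (Q ⧸ A) := Fintype.ofFinite _
  have := hLI.fintype_card_le_finrank
  rw [Subgroup.index_eq_card, Nat.card_eq_fintype_card]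
  exact this


/-- **The bound.**  Let `y` of prime order `s` normalize but not centralize a `q`-subgroup of a
faithful linear group over an algebraically closed field of characteristic different from `q`.
Then `s ≤ dim + 1`. -/
theorem bound [IsAlgClosed K] [FiniteDimensional K W] {Γ : Type*} [Group Γ] [Finite Γ]
    (ρ : Γ →* Module.End K W) (hρ : Function.Injective ρ)
    {q s : ℕ} [hq : Fact q.Prime] [hs : Fact s.Prime] (hqK : (q : K) ≠ 0) (hqs : q ≠ s)
    (Q : Subgroup Γ) (hQ : IsPGroup q Q) (y : Γ) (hy : orderOf y = s)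
    (hyQ : ∀ a ∈ Q, y * a * y⁻¹ ∈ Q) (hnc : ∃ a ∈ Q, y * a * y⁻¹ ≠ a) :
    s ≤ finrank K W + 1 := by
  classical
  have hys : y ^ s = 1 := by rw [← hy]; exact pow_orderOf_eq_one y
  -- minimal subgroup
  let P : Set (Subgroup Γ) := {M | (∀ a ∈ M, y * a * y⁻¹ ∈ M) ∧ ∃ a ∈ M, y * a * y⁻¹ ≠ a}
  obtain ⟨Q₀, hQ₀le, hQ₀min⟩ := Set.Finite.exists_le_minimal (Set.toFinite P)
    (show Q ∈ P from ⟨hyQ, hnc⟩)
  obtain ⟨hQ₀y, a₀, ha₀, ha₀y⟩ := hQ₀min.prop
  have hQ₀p : IsPGroup q Q₀ := hQ.to_le hQ₀le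
  have hmin : ∀ M : Subgroup Γ, M ≤ Q₀ → (∀ a ∈ M, y * a * y⁻¹ ∈ M) → M ≠ Q₀ →
      ∀ a ∈ M, y * a * y⁻¹ = a := by
    intro M hM hMy hne a ha
    by_contra hcon
    have hMP : M ∈ P := ⟨hMy, a, ha, hcon⟩
    exact hne (le_antisymm hM (hQ₀min.le_of_le hMP hM))
  -- powers of `y`
  have hypow : ∀ (k : ℕ), ∀ a ∈ Q₀, y ^ k * a * (y ^ k)⁻¹ ∈ Q₀ := by
    intro k
    induction k with
    | zero => intro a ha; simpa using ha
    | succ k ih =>
      intro a ha
      have h1 : y ^ (k + 1) * a * (y ^ (k + 1))⁻¹ = y * (y ^ k * a * (y ^ k)⁻¹) * y⁻¹ := by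
        rw [pow_succ']; group
      rw [h1]
      exact hQ₀y _ (ih a ha)
  have hyinv : y⁻¹ = y ^ (s - 1) := by
    rw [inv_eq_iff_mul_eq_one, ← pow_succ', Nat.sub_add_cancel hs.out.one_lt.le, hys]
  have hQ₀y' : ∀ a ∈ Q₀, y⁻¹ * a * y ∈ Q₀ := by
    intro a ha
    have := hypow (s - 1) a ha
    rwa [← hyinv, inv_inv] at this
  have hcoprime : ∀ g ∈ Q₀, g ^ s = 1 → g = 1 := by
    intro g hg hgs
    obtain ⟨e, he⟩ := hQ₀p ⟨g, hg⟩
    have h1 : g ^ q ^ e = 1 := by
      have := congrArg Subtype.val he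
      simpa using this
    have h2 := Nat.dvd_gcd (orderOf_dvd_of_pow_eq_one hgs) (orderOf_dvd_of_pow_eq_one h1)
    have hcop : Nat.Coprime s (q ^ e) :=
      Nat.Coprime.pow_right _ ((Nat.coprime_primes hs.out hq.out).mpr (Ne.symm hqs))
    rw [hcop] at h2
    exact orderOf_eq_one_iff.mp (Nat.dvd_one.mp h2)
  have hcardK : ∀ (H : Subgroup Γ), H ≤ Q₀ → ((Nat.card H : ℕ) : K) ≠ 0 := by
    intro H hH
    obtain ⟨e, he⟩ := IsPGroup.iff_card.mp (hQ₀p.to_le hH)
    rw [he]
    push_cast
    exact pow_ne_zero _ hqK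
  have hρv : ∀ (g : Γ) (v : W), v ≠ 0 → ρ g v ≠ 0 := by
    intro g v hv h0
    apply hv
    have h1 : ρ g⁻¹ (ρ g v) = v := by
      rw [← Module.End.mul_apply, ← map_mul, inv_mul_cancel, map_one, Module.End.one_apply]
    rw [← h1, h0, map_zero]
  by_cases hcomm : ∀ a ∈ Q₀, ∀ b ∈ Q₀, a * b = b * a
  · -- abelian case
    let ρ₀ : Q₀ →* Module.End K W := ρ.comp Q₀.subtype
    have hρ₀c : ∀ a b, ρ₀ a * ρ₀ b = ρ₀ b * ρ₀ a := by
      intro a b
      show ρ (a : Γ) * ρ (b : Γ) = ρ (b : Γ) * ρ (a : Γ)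
      rw [← map_mul, ← map_mul, hcomm _ a.2 _ b.2]
    let c : ℕ → (Q₀ →* Q₀) := fun k =>
      { toFun := fun a => ⟨y ^ k * a * (y ^ k)⁻¹, hypow k a a.2⟩
        map_one' := Subtype.ext (by simp)
        map_mul' := fun a b => Subtype.ext (by simp only [Subgroup.coe_mul]; group) }
    have hcv : ∀ k (a : Q₀), ((c k a : Q₀) : Γ) = y ^ k * a * (y ^ k)⁻¹ := fun _ _ => rfl
    have hcadd : ∀ k l (a : Q₀), c (k + l) a = c k (c l a) := by
      intro k l a
      apply Subtype.ext
      rw [hcv, hcv, hcv, pow_add]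
      group
    have hcs : ∀ (a : Q₀), c s a = a := by
      intro a
      apply Subtype.ext
      rw [hcv, hys]
      simp
    have hc0 : ∀ (a : Q₀), c 0 a = a := by
      intro a
      apply Subtype.ext
      rw [hcv]; simp
    let x : Q₀ := ⟨a₀⁻¹ * (y * a₀ * y⁻¹), Q₀.mul_mem (Q₀.inv_mem ha₀) (hQ₀y _ ha₀)⟩
    have hx1 : x ≠ 1 := by
      intro h
      have := congrArg Subtype.val h
      apply ha₀y
      have h2 : a₀⁻¹ * (y * a₀ * y⁻¹) = 1 := this
      rw [inv_mul_eq_one] at h2
      exact h2.symm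
    have hρx : ρ₀ x ≠ 1 := by
      intro h
      apply hx1
      apply Subtype.ext
      apply hρ
      have : ρ (x : Γ) = 1 := h
      rw [this]
      simp
    obtain ⟨v, hv0, μ, hμ, hμx⟩ := exists_char_ne_one ρ₀ hρ₀c x (Nat.card Q₀) (pow_card_eq_one')
      (hcardK Q₀ le_rfl) hρx
    let χ : Fin s → (Q₀ →* K) := fun i => μ.comp (c i)
    have key : ∀ k : ℕ, 0 < k → k < s → (∀ a, μ (c k a) = μ a) → False := by
      intro k hk0 hks hk
      have hcopk : Nat.Coprime k s := by
        rw [Nat.coprime_comm]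
        exact (Nat.Prime.coprime_iff_not_dvd hs.out).mpr
          (fun h => absurd (Nat.le_of_dvd hk0 h) (by omega))
      obtain ⟨t, -, ht⟩ := Nat.exists_mul_mod_eq_one_of_coprime hcopk hs.out.one_lt
      have hmul : ∀ t a, μ (c (k * t) a) = μ a := by
        intro t
        induction t with
        | zero =>
          intro a
          rw [mul_zero, hc0]
        | succ t ih =>
          intro a
          rw [Nat.mul_succ, hcadd, ih, hk]
      have hc1 : ∀ a, c (k * t) a = c 1 a := by
        intro a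
        apply Subtype.ext
        rw [hcv, hcv, pow_eq_pow_mod (k * t) hys, ht]
      apply hμx
      have hx : x = (⟨a₀, ha₀⟩ : Q₀)⁻¹ * c 1 ⟨a₀, ha₀⟩ := by
        apply Subtype.ext
        simp [x, hcv]
      rw [hx, map_mul, ← hc1, hmul, ← map_mul, inv_mul_cancel, map_one]
    have key2 : ∀ i j : ℕ, i < j → j < s → (∀ b, μ (c i b) = μ (c j b)) → False := by
      intro i j hij hjs h
      refine key (j - i) (by omega) (by omega) fun a => ?_
      have h1 := h (c (s - i) a)
      have h2 : c i (c (s - i) a) = a := by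
        rw [← hcadd, show i + (s - i) = s by omega, hcs]
      have h3 : c j (c (s - i) a) = c (j - i) a := by
        rw [← hcadd, show j + (s - i) = (j - i) + s by omega, hcadd, hcs]
      rw [h2, h3] at h1
      exact h1.symm
    have hχinj : Function.Injective χ := by
      intro i j hij
      by_contra hne
      have hb : ∀ b, μ (c i b) = μ (c j b) := fun b => DFunLike.congr_fun hij b
      have hne' : (i : ℕ) ≠ j := fun h => hne (Fin.ext h)
      rcases lt_or_gt_of_ne hne' with h | h
      · exact key2 i j h j.2 hb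
      · exact key2 j i h i.2 (fun b => (hb b).symm)
    have hLI := linInd_of_chars ρ₀ χ hχinj (fun i : Fin s => ρ (y ^ (i : ℕ))⁻¹ v)
      (fun i => hρv _ _ hv0) (by
        intro i a
        have h1 : (a : Γ) * (y ^ (i : ℕ))⁻¹ = (y ^ (i : ℕ))⁻¹ * ((c i a : Q₀) : Γ) := by
          rw [hcv]; group
        show ρ (a : Γ) (ρ (y ^ (i : ℕ))⁻¹ v) = _
        rw [← Module.End.mul_apply, ← map_mul, h1, map_mul, Module.End.mul_apply]
        have h2 : ρ ((c i a : Q₀) : Γ) v = μ (c i a) • v := hμ (c i a)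
        rw [h2, map_smul]
        rfl)
    have := hLI.fintype_card_le_finrank
    rw [Fintype.card_fin] at this
    omega
  · -- the nonabelian case
    push Not at hcomm
    obtain ⟨a₁, ha₁, b₁, hb₁, hab₁⟩ := hcomm
    have hQ₀n : ∀ a ∈ Q₀, ∀ b ∈ Q₀, ⁅a, b⁆ ∈ Q₀ := fun a ha b hb =>
      Q₀.mul_mem (Q₀.mul_mem (Q₀.mul_mem ha hb) (Q₀.inv_mem ha)) (Q₀.inv_mem hb)
    have hmapQ : Q₀.map (MulAut.conj y).toMonoidHom ≤ Q₀ := by
      rintro _ ⟨a, ha, rfl⟩
      exact hQ₀y a ha
    have hmapZ : (Subgroup.zpowers y).map (MulAut.conj y).toMonoidHom ≤ Subgroup.zpowers y := by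
      rintro _ ⟨a, ha, rfl⟩
      obtain ⟨k, rfl⟩ := Subgroup.mem_zpowers_iff.mp ha
      refine Subgroup.mem_zpowers_iff.mpr ⟨k, ?_⟩
      simp only [MulEquiv.coe_toMonoidHom, MulAut.conj_apply]
      rw [(Commute.refl y).zpow_right k |>.eq]
      simp
    -- derived subgroup
    let D : Subgroup Γ := ⁅Q₀, Q₀⁆
    have hDle : D ≤ Q₀ := Subgroup.commutator_le.mpr hQ₀n
    have hDy : ∀ a ∈ D, y * a * y⁻¹ ∈ D := by
      intro a ha
      have h1 : (MulAut.conj y).toMonoidHom a ∈ D.map (MulAut.conj y).toMonoidHom :=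
        Subgroup.mem_map_of_mem _ ha
      rw [Subgroup.map_commutator] at h1
      exact Subgroup.commutator_mono hmapQ hmapQ h1
    have hDne : D ≠ Q₀ := by
      intro h
      haveI : Nontrivial Q₀ := by
        refine ⟨⟨a₁, ha₁⟩, 1, fun h1 => ?_⟩
        have : a₁ = 1 := congrArg Subtype.val h1
        apply hab₁
        rw [this]; simp
      haveI : Group.IsNilpotent Q₀ := hQ₀p.isNilpotent
      have hlt := Group.IsSolvable.commutator_lt_top_of_nontrivial (G := Q₀)
      apply hlt.ne
      apply Subgroup.map_injective Q₀.subtype_injective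
      rw [Subgroup.map_subtype_commutator, ← MonoidHom.range_eq_map, Subgroup.range_subtype]
      exact h
    have hDc := hmin D hDle hDy hDne
    -- fixed points
    let C : Subgroup Γ := Q₀ ⊓ Subgroup.centralizer {y}
    have hCmem : ∀ g, g ∈ C ↔ g ∈ Q₀ ∧ y * g * y⁻¹ = g := by
      intro g
      show g ∈ Q₀ ⊓ Subgroup.centralizer {y} ↔ _
      rw [Subgroup.mem_inf, Subgroup.mem_centralizer_singleton_iff]
      refine and_congr_right fun _ => ?_
      rw [mul_inv_eq_iff_eq_mul, eq_comm]
    have hcz : ∀ a, y * a * y⁻¹ = a → a ∈ Subgroup.centralizer (Subgroup.zpowers y : Set Γ) := by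
      intro a ha
      rw [Subgroup.mem_centralizer_iff]
      intro h hh
      have : Subgroup.zpowers y ≤ Subgroup.centralizer {a} := by
        rw [Subgroup.zpowers_le, Subgroup.mem_centralizer_singleton_iff]
        rw [mul_inv_eq_iff_eq_mul] at ha
        exact ha
      have := this hh
      rw [Subgroup.mem_centralizer_singleton_iff] at this
      exact this
    -- the commutator with `y` is everything
    let R : Subgroup Γ := ⁅Subgroup.zpowers y, Q₀⁆
    have hRle : R ≤ Q₀ := by
      refine Subgroup.commutator_le.mpr fun g hg a ha => ?_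
      obtain ⟨k, rfl⟩ := (mem_powers_iff_mem_zpowers).mpr hg
      exact Q₀.mul_mem (hypow k a ha) (Q₀.inv_mem ha)
    have hRy : ∀ a ∈ R, y * a * y⁻¹ ∈ R := by
      intro a ha
      have h1 : (MulAut.conj y).toMonoidHom a ∈ R.map (MulAut.conj y).toMonoidHom :=
        Subgroup.mem_map_of_mem _ ha
      rw [Subgroup.map_commutator] at h1
      exact Subgroup.commutator_mono hmapZ hmapQ h1
    have hRtop : R = Q₀ := by
      by_contra hne
      have hRc := hmin R hRle hRy hne
      apply ha₀y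
      let r : Γ := ⁅y, a₀⁆
      have hr : r ∈ R := Subgroup.commutator_mem_commutator (Subgroup.mem_zpowers y) ha₀
      have hry := hRc r hr
      have h1 : y * a₀ * y⁻¹ = r * a₀ := by
        simp only [r, commutatorElement_def]; group
      have h2 : ∀ k : ℕ, y ^ k * a₀ * (y ^ k)⁻¹ = r ^ k * a₀ := by
        intro k
        induction k with
        | zero => simp
        | succ k ih =>
          have h3 : y ^ (k + 1) * a₀ * (y ^ (k + 1))⁻¹ = y * (y ^ k * a₀ * (y ^ k)⁻¹) * y⁻¹ := by
            rw [pow_succ']; group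
          rw [h3, ih]
          have h4 : y * (r ^ k * a₀) * y⁻¹ = (y * r ^ k * y⁻¹) * (y * a₀ * y⁻¹) := by group
          have h5 : y * r ^ k * y⁻¹ = r ^ k := by
            have := map_pow (MulAut.conj y) r k
            simp only [MulAut.conj_apply] at this
            rw [this, hry]
          rw [h4, h5, h1, pow_succ, mul_assoc]
      have h3 := h2 s
      rw [hys] at h3
      simp only [one_mul, inv_one, mul_one] at h3
      have h4 : r ^ s = 1 := by
        have : r ^ s * a₀ = 1 * a₀ := by rw [← h3, one_mul]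
        exact mul_right_cancel this
      have h5 := hcoprime r (hRle hr) h4
      rw [h1, h5, one_mul]
    -- three subgroups
    have hCcent' : ⁅Q₀, C⁆ = ⊥ := by
      have h3 := Subgroup.commutator_commutator_eq_bot_of_rotate (H₁ := Subgroup.zpowers y) (H₂ := Q₀)
        (H₃ := C) ?_ ?_
      · have h4 : ⁅Subgroup.zpowers y, Q₀⁆ = Q₀ := hRtop
        rwa [h4] at h3
      · rw [Subgroup.commutator_eq_bot_iff_le_centralizer]
        refine le_trans (Subgroup.commutator_mono le_rfl inf_le_left) ?_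
        intro a ha
        exact hcz a (hDc a ha)
      · have h4 : ⁅C, Subgroup.zpowers y⁆ = ⊥ := by
          rw [Subgroup.commutator_eq_bot_iff_le_centralizer]
          intro a ha
          exact hcz a ((hCmem a).mp ha).2
        rw [h4, Subgroup.commutator_bot_left]
    have hCcent : ∀ c ∈ C, ∀ g ∈ Q₀, c * g = g * c := by
      intro c hc g hg
      have h1 : ⁅g, c⁆ = 1 := by
        have : ⁅g, c⁆ ∈ ⁅Q₀, C⁆ := Subgroup.commutator_mem_commutator hg hc
        rw [hCcent'] at this
        exact this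
      exact ((commutatorElement_eq_one_iff_mul_comm.mp h1)).symm
    have hDC : ∀ a ∈ Q₀, ∀ b ∈ Q₀, ⁅a, b⁆ ∈ C := by
      intro a ha b hb
      have : ⁅a, b⁆ ∈ D := Subgroup.commutator_mem_commutator ha hb
      exact (hCmem _).mpr ⟨hDle this, hDc _ this⟩
    -- the character
    let ρC : C →* Module.End K W := ρ.comp C.subtype
    have hCQ : C ≤ Q₀ := inf_le_left
    have hρCc : ∀ a b, ρC a * ρC b = ρC b * ρC a := by
      intro a b
      show ρ (a : Γ) * ρ (b : Γ) = ρ (b : Γ) * ρ (a : Γ)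
      rw [← map_mul, ← map_mul, hCcent _ a.2 _ (hCQ b.2)]
    have hz₁ : ⁅a₁, b₁⁆ ≠ 1 := fun h => hab₁ (commutatorElement_eq_one_iff_mul_comm.mp h)
    let x : C := ⟨⁅a₁, b₁⁆, hDC a₁ ha₁ b₁ hb₁⟩
    have hρx : ρC x ≠ 1 := by
      intro h
      apply hz₁
      apply hρ
      have : ρ ⁅a₁, b₁⁆ = 1 := h
      rw [this, map_one]
    obtain ⟨v0, hv0, μ, hμ, hμx⟩ := exists_char_ne_one ρC hρCc x (Nat.card C) (pow_card_eq_one')
      (hcardK C hCQ) hρx
    let f : Γ → K := fun g => if h : g ∈ C then μ ⟨g, h⟩ else 1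
    have hf : ∀ g (h : g ∈ C), f g = μ ⟨g, h⟩ := fun g h => dif_pos h
    have hfmul : ∀ g ∈ C, ∀ g' ∈ C, f (g * g') = f g * f g' := by
      intro g hg g' hg'
      rw [hf _ (C.mul_mem hg hg'), hf _ hg, hf _ hg', ← map_mul]
      rfl
    have hf1 : f 1 = 1 := by
      rw [hf 1 C.one_mem]
      exact map_one μ
    -- commutator identity
    have hcm : ∀ a ∈ Q₀, ∀ a' ∈ Q₀, ∀ b ∈ Q₀, ⁅a * a', b⁆ = ⁅a', b⁆ * ⁅a, b⁆ := by
      intro a ha a' ha' b hb
      have h1 : ⁅a * a', b⁆ = a * ⁅a', b⁆ * a⁻¹ * ⁅a, b⁆ := by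
        simp only [commutatorElement_def]; group
      rw [h1, ← hCcent _ (hDC a' ha' b hb) a ha, mul_inv_cancel_right]
    -- radical
    let Rad : Subgroup Γ :=
      { carrier := {a | a ∈ Q₀ ∧ ∀ b ∈ Q₀, f ⁅a, b⁆ = 1}
        mul_mem' := fun {a a'} ha ha' => ⟨Q₀.mul_mem ha.1 ha'.1, fun b hb => by
          rw [hcm a ha.1 a' ha'.1 b hb, hfmul _ (hDC _ ha'.1 _ hb) _ (hDC _ ha.1 _ hb),
            ha.2 b hb, ha'.2 b hb, one_mul]⟩
        one_mem' := ⟨Q₀.one_mem, fun b hb => by rw [commutatorElement_one_left, hf1]⟩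
        inv_mem' := fun {a} ha => ⟨Q₀.inv_mem ha.1, fun b hb => by
          have h1 := hcm a ha.1 a⁻¹ (Q₀.inv_mem ha.1) b hb
          rw [mul_inv_cancel, commutatorElement_one_left] at h1
          have h2 := congrArg f h1
          rw [hf1, hfmul _ (hDC _ (Q₀.inv_mem ha.1) _ hb) _ (hDC _ ha.1 _ hb), ha.2 b hb,
            mul_one] at h2
          exact h2.symm⟩ }
    have hRady : ∀ a ∈ Rad, y * a * y⁻¹ ∈ Rad := by
      rintro a ⟨ha, ha'⟩
      refine ⟨hQ₀y a ha, fun b hb => ?_⟩
      have h1 : ⁅y * a * y⁻¹, b⁆ = y * ⁅a, y⁻¹ * b * y⁆ * y⁻¹ := by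
        simp only [commutatorElement_def]; group
      have h2 := hDC a ha _ (hQ₀y' b hb)
      rw [h1, ((hCmem _).mp h2).2]
      exact ha' _ (hQ₀y' b hb)
    have hRadne : Rad ≠ Q₀ := by
      intro h
      have : a₁ ∈ Rad := h ▸ ha₁
      apply hμx
      have h2 := this.2 b₁ hb₁
      rwa [hf _ (hDC a₁ ha₁ b₁ hb₁)] at h2
    have hRadC : ∀ a ∈ Rad, a ∈ C := fun a ha =>
      (hCmem a).mpr ⟨ha.1, hmin Rad (fun _ h => h.1) hRady hRadne a ha⟩
    -- apply the Heisenberg bound
    let Z : Subgroup Q₀ := C.subgroupOf Q₀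
    have hZmem : ∀ g : Q₀, g ∈ Z ↔ (g : Γ) ∈ C := fun g => Subgroup.mem_subgroupOf
    have hcommZ : ∀ a b : Q₀, ⁅a, b⁆ ∈ Z := by
      intro a b
      rw [hZmem]
      exact hDC a a.2 b b.2
    let lam : Z →* K :=
      { toFun := fun c => μ ⟨(c : Q₀), (hZmem _).mp c.2⟩
        map_one' := map_one μ
        map_mul' := fun c c' => map_mul μ ⟨(c : Q₀), (hZmem _).mp c.2⟩ ⟨(c' : Q₀), (hZmem _).mp c'.2⟩ }
    obtain ⟨d, hd, hdn⟩ := heisenberg (ρ.comp Q₀.subtype) Z
      (fun c hc g => Subtype.ext (hCcent _ ((hZmem c).mp hc) _ g.2)) hcommZ lam v0 hv0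
      (fun c => hμ ⟨(c : Q₀), (hZmem _).mp c.2⟩)
      (by
        intro a ha
        rw [hZmem]
        apply hRadC
        refine ⟨a.2, fun b hb => ?_⟩
        rw [hf _ (hDC _ a.2 _ hb)]
        exact ha ⟨b, hb⟩)
    -- the fixed point count
    haveI : Fintype Q₀ := Fintype.ofFinite _
    let F : Function.End Q₀ := fun a => ⟨y * a * y⁻¹, hQ₀y _ a.2⟩
    have hFpow : ∀ k : ℕ, ∀ a : Q₀, (((F ^ k) a : Q₀) : Γ) = y ^ k * a * (y ^ k)⁻¹ := by
      intro k
      induction k with
      | zero =>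
        intro a
        simp only [pow_zero, inv_one, one_mul, mul_one]
        rfl
      | succ k ih =>
        intro a
        rw [pow_succ', Function.End.mul_def]
        show y * ((F ^ k) a : Γ) * y⁻¹ = _
        rw [ih, pow_succ']
        group
    have hFs : F ^ s ^ 1 = 1 := by
      rw [pow_one]
      funext a
      apply Subtype.ext
      rw [hFpow, hys]
      simp
      rfl
    have hmod := Equiv.Perm.card_fixedPoints_modEq (f := F) hFs
    have hfix : Fintype.card (Function.fixedPoints F) = Nat.card Z := by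
      rw [← Nat.card_eq_fintype_card]
      refine Nat.card_congr (Equiv.subtypeEquivRight ?_)
      intro a
      rw [hZmem, hCmem, Function.mem_fixedPoints_iff]
      constructor
      · intro h
        exact ⟨a.2, congrArg Subtype.val h⟩
      · rintro ⟨-, h⟩
        exact Subtype.ext h
    rw [hfix, ← Nat.card_eq_fintype_card, ← Subgroup.card_mul_index Z, hd] at hmod
    have hZcop : Nat.Coprime (Nat.card Z) s := by
      obtain ⟨e, he⟩ := IsPGroup.iff_card.mp (hQ₀p.to_subgroup Z)
      rw [he]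
      exact Nat.Coprime.pow_left _ ((Nat.coprime_primes hq.out hs.out).mpr hqs)
    have hmod2 : d ^ 2 ≡ 1 [MOD s] := by
      have h1 : Nat.card Z * d ^ 2 ≡ Nat.card Z * 1 [MOD s] := by rwa [mul_one]
      exact Nat.ModEq.cancel_left_of_coprime (by rwa [Nat.coprime_iff_gcd_eq_one, Nat.gcd_comm] at hZcop) h1
    have hd2 : 2 ≤ d := by
      by_contra hlt
      have hd1 : d ^ 2 ≤ 1 := by
        interval_cases d <;> simp
      have hi0 : Z.index ≠ 0 := Subgroup.index_ne_zero_of_finite
      have hi1 : Z.index = 1 := by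
        rw [hd] at hi0 ⊢
        omega
      rw [Subgroup.index_eq_one] at hi1
      have h3 : (⟨a₁, ha₁⟩ : Q₀) ∈ Z := by rw [hi1]; trivial
      exact hab₁ (hCcent _ ((hZmem _).mp h3) _ hb₁)
    have hdvd : s ∣ (d - 1) * (d + 1) := by
      have h1 : 1 ≤ d ^ 2 := Nat.one_le_pow _ _ (by omega)
      have h2 := (Nat.modEq_iff_dvd' h1).mp hmod2.symm
      have h3 : (d - 1) * (d + 1) = d ^ 2 - 1 := by
        obtain ⟨e, rfl⟩ : ∃ e, d = e + 1 := ⟨d - 1, by omega⟩
        simp only [Nat.add_sub_cancel]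
        have : (e + 1) ^ 2 = e * (e + 1 + 1) + 1 := by ring
        rw [this, Nat.add_sub_cancel]
      rwa [h3]
    rcases (Nat.Prime.dvd_mul hs.out).mp hdvd with h | h
    · have := Nat.le_of_dvd (by omega) h
      omega
    · have := Nat.le_of_dvd (by omega) h
      omega

end Eigen

end Cfsg.Agent.Lib.HeisBound
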