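import Mathlib
import Cfsg.Agent.Lib.Inv2Omega

/-!
# Involutions in orthogonal and symplectic groups, characteristic two: matrix forms of the classification
-/

set_option autoImplicit false
set_option linter.unusedSectionVars false
set_option linter.unusedSimpArgs false
set_option linter.unusedVariables false

namespace Cfsg.Agent.Lib.Inv2Conv

open Module QuadraticMap Matrix
open scoped MatrixGroups
open Cfsg.Agent.Lib.Inv2 Cfsg.Agent.Lib.Inv2Count Cfsg.Agent.Lib.Inv2Omega Cfsg.Agent.Lib.OrthGroup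
  Cfsg.Agent.Lib.OrthOmega Cfsg.Agent.Lib.OrthLagr Cfsg.Agent.Lib.OrthMatrix

section orth

variable {F : Type*} [Field F] [Fintype F] [CharP F 2] {ι : Type} [Fintype ι] [DecidableEq ι]
variable {Q : QuadraticForm F (ι → F)}

theorem eO_apply (g : ↥(Cfsg.isometryGroup F ⇑Q)) (v : ι → F) :
    eO Q g v = ((g : GL ι F) : Matrix ι ι F) *ᵥ v := rfl

theorem Nx_eO (g : ↥(Cfsg.isometryGroup F ⇑Q)) :
    Nx (eO Q g) = Matrix.mulVecLin (((g : GL ι F) : Matrix ι ι F) - 1) := by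
  refine LinearMap.ext fun v => ?_
  simp [Nx_apply, eO_apply, Matrix.sub_mulVec]

theorem finrank_Nx (g : ↥(Cfsg.isometryGroup F ⇑Q)) :
    finrank F (LinearMap.range (Nx (eO Q g))) = (((g : GL ι F) : Matrix ι ι F) - 1).rank := by
  rw [Nx_eO]
  rfl

theorem range_toLin (g : ↥(Cfsg.isometryGroup F ⇑Q)) :
    LinearMap.range (Matrix.toLin' (((g : GL ι F) : Matrix ι ι F) - 1)) = LinearMap.range (Nx (eO Q g)) := by
  rw [Nx_eO]
  rfl

theorem add_eq_Nx (g : ↥(Cfsg.isometryGroup F ⇑Q)) (v : ι → F) :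
    v + ((g : GL ι F) : Matrix ι ι F) *ᵥ v = Nx (eO Q g) v := by
  rw [Nx_apply, eO_apply]
  funext i
  simp only [Pi.add_apply, Pi.sub_apply]
  rw [CharTwo.sub_eq_add, add_comm]

theorem Q_add_iff (g : ↥(Cfsg.isometryGroup F ⇑Q)) (hg : orderOf g = 2) :
    (∀ v, Q (v + ((g : GL ι F) : Matrix ι ι F) *ᵥ v) = 0) ↔ ∀ v, polarBilin Q v (Nx (eO Q g) v) = 0 := by
  have h := adm_of_order Q g hg
  simp only [add_eq_Nx, h.q]

theorem omega_iff_rank (hnd : (polarBilin Q).Nondegenerate) (hOG : O Q ≤ G Q) (g : ↥(Cfsg.isometryGroup F ⇑Q)) :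
    g ∈ Cfsg.Omega F ⇑Q ↔ Even (((g : GL ι F) : Matrix ι ι F) - 1).rank := by
  rw [mem_H_iff hnd hOG, finrank_Nx]

theorem conj_iff_polar (hnd : (polarBilin Q).Nondegenerate) {m : ℕ} (hV : finrank F (ι → F) = 2 * m)
    (t s : ↥(Cfsg.isometryGroup F ⇑Q)) (ht : orderOf t = 2) (hs : orderOf s = 2) :
    IsConj t s ↔ ∃ g ∈ Cfsg.preserving (Units.coeHom (Matrix ι ι F)) (fun u v => Q (u + v) - Q u - Q v),
      g * (t : GL ι F) * g⁻¹ = (s : GL ι F) := by
  constructor
  · intro hc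
    obtain ⟨c, rfl⟩ := isConj_iff.mp hc
    refine ⟨(c : GL ι F), ?_, rfl⟩
    intro u v
    have h := eO_isometry Q c u v
    simp only [polarBilin_apply_apply, polar, ← map_add] at h
    simp only [Units.coeHom_apply, ← Matrix.mulVec_add]
    exact h
  · rintro ⟨g, hg, hgs⟩
    rw [classify (eO Q) (eO_inj Q) (polarBilin Q) (eO_isometry Q) (SAQ Q) (adm_of_order Q)
      (conj_of_adm Q hnd hV) ht hs]
    have h1 : eO Q s = glEquiv g * eO Q t * (glEquiv g)⁻¹ := by
      have e : eO Q s = glEquiv (s : GL ι F) := rfl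
      have e2 : eO Q t = glEquiv (t : GL ι F) := rfl
      rw [e, e2, ← hgs, map_mul, map_mul, map_inv]
    rw [h1]
    refine (invN_conj (polarBilin Q) (glEquiv g) (eO Q t) fun u v => ?_).symm
    have := hg u v
    simp only [Units.coeHom_apply, ← Matrix.mulVec_add] at this
    simp only [polarBilin_apply_apply, polar, ← map_add]
    exact this

variable (hnd : (polarBilin Q).Nondegenerate) (hOG : O Q ≤ G Q) {m : ℕ} (hV : finrank F (ι → F) = 2 * m)
include hnd hOG hV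

/-- A conjugate by an element of the group is a conjugate by the commutator subgroup when the class does not split. -/
theorem exists_omega_conj {t s : ↥(Cfsg.isometryGroup F ⇑Q)} (ht : orderOf t = 2) (hconj : IsConj t s)
    (hne : ¬ (finrank F (LinearMap.range (Nx (eO Q t))) = m ∧ ∀ v, polarBilin Q v (Nx (eO Q t) v) = 0)) :
    ∃ g ∈ Cfsg.Omega F ⇑Q, g * t * g⁻¹ = s := by
  obtain ⟨c0, hc0⟩ := isConj_iff.mp hconj
  by_cases h0 : c0 ∈ Cfsg.Omega F ⇑Q
  · exact ⟨c0, h0, hc0⟩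
  · have h1 : ¬ ∀ c, Commute c t → c ∈ Cfsg.Omega F ⇑Q := fun h =>
      hne (split_of_comm hnd hOG hV (adm_of_order Q t ht) h)
    push Not at h1
    obtain ⟨c, hc1, hc2⟩ := h1
    have hc3 : c⁻¹ ∉ Cfsg.Omega F ⇑Q := fun h => hc2 (by simpa using (Subgroup.inv_mem _ h))
    have h2 := index_two hnd hOG c⁻¹ c0 hc3 h0
    rw [inv_inv] at h2
    refine ⟨c0 * c, h2, ?_⟩
    rw [← hc0]
    have : c * t * c⁻¹ = t := by rw [hc1.eq]; group
    calc c0 * c * t * (c0 * c)⁻¹ = c0 * (c * t * c⁻¹) * c0⁻¹ := by group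
      _ = c0 * t * c0⁻¹ := by rw [this]

/-- In the split case a conjugator lies in the commutator subgroup exactly when the images meet in the right parity. -/
theorem mem_iff_even_inf {t s c : ↥(Cfsg.isometryGroup F ⇑Q)} (ht : orderOf t = 2) (hc : c * t * c⁻¹ = s)
    (h1 : finrank F (LinearMap.range (Nx (eO Q t))) = m) (h2 : ∀ v, polarBilin Q v (Nx (eO Q t) v) = 0) :
    c ∈ Cfsg.Omega F ⇑Q ↔
      Even (m + finrank F ↥(LinearMap.range (Nx (eO Q t)) ⊓ LinearMap.range (Nx (eO Q s)))) := by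
  have hN := adm_of_order Q t ht
  obtain ⟨R, hR⟩ : ∃ R, R = LinearMap.range (Nx (eO Q t)) := ⟨_, rfl⟩
  have hlag : IsLag Q m R := by
    constructor
    · rw [hR]
      rintro _ ⟨w, rfl⟩
      rw [hN.q, h2]
    · rw [hR, h1]
  obtain ⟨L, hL, hx⟩ := exists_list_of_mem_G (hOG (eO_mem Q c))
  have hmap : LinearMap.range (Nx (eO Q s)) = R.map ((prodR Q L : (ι → F) ≃ₗ[F] (ι → F)) : (ι → F) →ₗ[F] (ι → F)) := by
    rw [← hx, hR, ← hc, map_mul, map_mul, map_inv]
    have hNc : Nx (eO Q c * eO Q t * (eO Q c)⁻¹) =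
        ((eO Q c : (ι → F) ≃ₗ[F] (ι → F)) : (ι → F) →ₗ[F] (ι → F)) ∘ₗ Nx (eO Q t) ∘ₗ (((eO Q c)⁻¹ : (ι → F) ≃ₗ[F] (ι → F)) : (ι → F) →ₗ[F] (ι → F)) := by
      refine LinearMap.ext fun v => ?_
      have e1 : eO Q c ((eO Q c)⁻¹ v) = v := (eO Q c).apply_symm_apply v
      simp only [LinearMap.comp_apply, LinearEquiv.coe_coe, Nx_apply, map_sub, e1]
      rfl
    rw [hNc, LinearMap.range_comp, LinearMap.range_comp_of_range_eq_top]
    exact LinearEquiv.range _
  have h3 := parity_lag hnd hV hlag hlag L hL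
  rw [inf_idem, hlag.dim, ← hmap, Nat.sub_self, add_zero] at h3
  rw [← hR, mem_H_iff hnd hOG, even_of_list hnd hL hx]
  have h4 : finrank F ↥(R ⊓ LinearMap.range (Nx (eO Q s))) ≤ m := by
    have := Submodule.finrank_mono (inf_le_left : R ⊓ LinearMap.range (Nx (eO Q s)) ≤ R)
    rwa [hlag.dim] at this
  obtain ⟨a, ha⟩ : ∃ a, a = finrank F ↥(R ⊓ LinearMap.range (Nx (eO Q s))) := ⟨_, rfl⟩
  rw [← ha] at h3 h4 ⊢
  obtain ⟨b, hb⟩ : ∃ b, b + a = m := ⟨m - a, by omega⟩
  have e : m - a = b := by omega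
  rw [e] at h3
  rw [← hb]
  rw [Nat.even_add] at h3
  rw [Nat.even_add, Nat.even_add]
  tauto

omit hnd hOG hV in
/-- Transport to a function equal to a quadratic form. -/
theorem conj_iff_polar' (q : (ι → F) → F) (hq : q = ⇑Q) (hnd : (polarBilin Q).Nondegenerate) {m : ℕ} (hV : finrank F (ι → F) = 2 * m)
    (t s : ↥(Cfsg.isometryGroup F q)) (ht : orderOf t = 2) (hs : orderOf s = 2) :
    IsConj t s ↔ ∃ g ∈ Cfsg.preserving (Units.coeHom (Matrix ι ι F)) (fun u v => q (u + v) - q u - q v),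
      g * (t : GL ι F) * g⁻¹ = (s : GL ι F) := by
  subst hq
  exact conj_iff_polar hnd hV t s ht hs

omit hnd hOG hV in
theorem omega_iff_rank' (q : (ι → F) → F) (hq : q = ⇑Q) (hnd : (polarBilin Q).Nondegenerate) (hOG : O Q ≤ G Q)
    (g : ↥(Cfsg.isometryGroup F q)) :
    g ∈ Cfsg.Omega F q ↔ Even (((g : GL ι F) : Matrix ι ι F) - 1).rank := by
  subst hq
  exact omega_iff_rank hnd hOG g

/-- The general splitting statement. -/
theorem split_general (q : (ι → F) → F) (hq : q = ⇑Q)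
    (t s : ↥(Cfsg.isometryGroup F q)) (ht : orderOf t = 2) (htO : t ∈ Cfsg.Omega F q) (hconj : IsConj t s) :
    (¬ ((((t : GL ι F) : Matrix ι ι F) - 1).rank = m ∧ ∀ v : ι → F, q (v + Matrix.mulVec ((t : GL ι F) : Matrix ι ι F) v) = 0) →
      ∃ g ∈ Cfsg.Omega F q, g * t * g⁻¹ = s) ∧
    (((((t : GL ι F) : Matrix ι ι F) - 1).rank = m ∧ ∀ v : ι → F, q (v + Matrix.mulVec ((t : GL ι F) : Matrix ι ι F) v) = 0) →
      ((∃ g ∈ Cfsg.Omega F q, g * t * g⁻¹ = s) ↔
        Even (Module.finrank F ↥(LinearMap.range (Matrix.toLin' (((t : GL ι F) : Matrix ι ι F) - 1)) ⊓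
          LinearMap.range (Matrix.toLin' (((s : GL ι F) : Matrix ι ι F) - 1)))))) := by
  subst hq
  simp only [Q_add_iff t ht, ← finrank_Nx]
  rw [range_toLin, range_toLin]
  constructor
  · exact exists_omega_conj hnd hOG hV ht hconj
  · rintro ⟨h1, h2⟩
    have hm : Even m := by
      rw [← h1, finrank_Nx]
      exact (omega_iff_rank hnd hOG t).1 htO
    have hmem : ∀ c : ↥(Cfsg.isometryGroup F ⇑Q), c * t * c⁻¹ = s → (c ∈ Cfsg.Omega F ⇑Q ↔
        Even (finrank F ↥(LinearMap.range (Nx (eO Q t)) ⊓ LinearMap.range (Nx (eO Q s))))) := by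
      intro c hc
      rw [mem_iff_even_inf hnd hOG hV ht hc h1 h2, Nat.even_add]
      tauto
    constructor
    · rintro ⟨g, hg1, hg2⟩
      exact (hmem g hg2).1 hg1
    · intro he
      obtain ⟨c, hc⟩ := isConj_iff.mp hconj
      exact ⟨c, (hmem c hc).2 he, hc⟩

/-- No splitting when the exceptional type does not occur. -/
theorem nosplit_general (q : (ι → F) → F) (hq : q = ⇑Q)
    (t s : ↥(Cfsg.isometryGroup F q)) (ht : orderOf t = 2) (hconj : IsConj t s)
    (hK : ∀ N, SAQ Q N → (∀ v, polarBilin Q v (N v) = 0) → finrank F (LinearMap.range N) < m) :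
    ∃ g ∈ Cfsg.Omega F q, g * t * g⁻¹ = s := by
  subst hq
  refine exists_omega_conj hnd hOG hV ht hconj ?_
  rintro ⟨h1, h2⟩
  have := hK _ (adm_of_order Q t ht) h2
  omega

end orth

section sp

open Cfsg.Agent.Lib.SpBasic Cfsg.Agent.Lib.OrthoCount

variable {F : Type*} [Field F] [Fintype F] [CharP F 2] {m : ℕ}

theorem Nx_eS (g : ↥(symplecticGroup (Fin m) F)) :
    Nx (eS g) = Matrix.mulVecLin ((g : Matrix (Fin m ⊕ Fin m) (Fin m ⊕ Fin m) F) - 1) := by
  refine LinearMap.ext fun v => ?_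
  simp [Nx_apply, eS_apply, Matrix.sub_mulVec]

theorem finrank_Nx_S (g : ↥(symplecticGroup (Fin m) F)) :
    finrank F (LinearMap.range (Nx (eS g))) = ((g : Matrix (Fin m ⊕ Fin m) (Fin m ⊕ Fin m) F) - 1).rank := by
  rw [Nx_eS]
  rfl

theorem symp_eq (g : ↥(symplecticGroup (Fin m) F)) (v : Fin m ⊕ Fin m → F) :
    Cfsg.sympForm m F v ((g : Matrix (Fin m ⊕ Fin m) (Fin m ⊕ Fin m) F) *ᵥ v) = polarBilin (qPlus m F) v (Nx (eS g) v) := by
  have h1 : Cfsg.sympForm m F v ((g : Matrix (Fin m ⊕ Fin m) (Fin m ⊕ Fin m) F) *ᵥ v) =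
      ω v ((g : Matrix (Fin m ⊕ Fin m) (Fin m ⊕ Fin m) F) *ᵥ v) := rfl
  rw [h1, ω_eq_polar, Nx_apply, map_sub, pB_self, sub_zero]
  rfl

theorem card_iff {α : Type*} [Finite α] (P : α → Prop) : Nat.card {v // P v} = Nat.card α ↔ ∀ v, P v := by
  constructor
  · intro h v
    have hb : Function.Bijective (Subtype.val : {v // P v} → α) :=
      (Nat.bijective_iff_injective_and_card _).mpr ⟨Subtype.val_injective, h⟩
    obtain ⟨⟨w, hw⟩, rfl⟩ := hb.2 v
    exact hw
  · intro h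
    exact Nat.card_congr (Equiv.subtypeUnivEquiv h)

/-- The conjugacy criterion for involutions in the symplectic group. -/
theorem sp_invol_conj (a b : ↥(symplecticGroup (Fin m) F)) (ha : orderOf a = 2) (hb : orderOf b = 2) :
    IsConj a b ↔ (((a : Matrix (Fin m ⊕ Fin m) (Fin m ⊕ Fin m) F) - 1).rank = ((b : Matrix (Fin m ⊕ Fin m) (Fin m ⊕ Fin m) F) - 1).rank ∧
      (Even ((a : Matrix (Fin m ⊕ Fin m) (Fin m ⊕ Fin m) F) - 1).rank →
        Nat.card {v : Fin m ⊕ Fin m → F // Cfsg.sympForm m F v ((a : Matrix (Fin m ⊕ Fin m) (Fin m ⊕ Fin m) F) *ᵥ v) = 0} =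
          Nat.card {v : Fin m ⊕ Fin m → F // Cfsg.sympForm m F v ((b : Matrix (Fin m ⊕ Fin m) (Fin m ⊕ Fin m) F) *ᵥ v) = 0})) := by
  have hcl := classify (G := ↥(symplecticGroup (Fin m) F)) eS eS_inj (polarBilin (qPlus m F)) eS_isometry
    (SA (polarBilin (qPlus m F))) sp_h1 sp_h3 ha hb
  rw [invN_eq_iff, finrank_Nx_S, finrank_Nx_S] at hcl
  have hA : ∀ g : ↥(symplecticGroup (Fin m) F),
      (∀ v, polarBilin (qPlus m F) v (Nx (eS g) v) = 0) ↔
        Nat.card {v : Fin m ⊕ Fin m → F // Cfsg.sympForm m F v ((g : Matrix (Fin m ⊕ Fin m) (Fin m ⊕ Fin m) F) *ᵥ v) = 0} =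
          Nat.card (Fin m ⊕ Fin m → F) := by
    intro g
    rw [card_iff]
    simp only [symp_eq]
  have hcl2 := hcl
  rw [hcl, hA a, hA b]
  constructor
  · rintro ⟨h1, h2⟩
    refine ⟨h1, fun _ => ?_⟩
    -- the sets are in bijection through a conjugator
    obtain ⟨c, rfl⟩ := isConj_iff.mp (hcl2.2 ⟨h1, by rw [hA a, hA b]; exact h2⟩)
    refine Nat.card_congr (Equiv.subtypeEquiv (eS c).toEquiv fun v => ?_)
    have e : (((c * a * c⁻¹ : ↥(symplecticGroup (Fin m) F))) : Matrix (Fin m ⊕ Fin m) (Fin m ⊕ Fin m) F) *ᵥ (eS c v) =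
        eS c (a.1 *ᵥ v) := by
      rw [eS_apply, eS_apply]
      show ((c.1 * a.1 * (c⁻¹).1)) *ᵥ _ = _
      have e1 : (c⁻¹).1 * c.1 = 1 := by
        have : (c⁻¹ * c).1 = 1 := by rw [inv_mul_cancel]; rfl
        exact this
      rw [Matrix.mulVec_mulVec, Matrix.mul_assoc, Matrix.mul_assoc, e1, Matrix.mul_one, Matrix.mulVec_mulVec]
    have e2 : ∀ x y : Fin m ⊕ Fin m → F, Cfsg.sympForm m F x y = polarBilin (qPlus m F) x y := fun x y => ω_eq_polar x y
    simp only [Equiv.coe_fn_mk, LinearEquiv.coe_toEquiv, e, e2]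
    rw [eS_isometry]
  · rintro ⟨h1, h2⟩
    refine ⟨h1, ?_⟩
    by_cases he : Even ((a : Matrix (Fin m ⊕ Fin m) (Fin m ⊕ Fin m) F) - 1).rank
    · rw [h2 he]
    · have hnz : ∀ g : ↥(symplecticGroup (Fin m) F), orderOf g = 2 → Nx (eS g) ≠ 0 := by
        intro g hg h0
        have h4 : eS g = 1 := by
          apply LinearEquiv.ext
          intro v
          have := LinearMap.congr_fun h0 v
          simpa [sub_eq_zero] using this
        have h5 : g = 1 := eS_inj (by rw [h4, map_one])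
        rw [h5, orderOf_one] at hg
        omega
      have hEv : ∀ g : ↥(symplecticGroup (Fin m) F), orderOf g = 2 →
          (Nat.card {v : Fin m ⊕ Fin m → F // Cfsg.sympForm m F v ((g : Matrix (Fin m ⊕ Fin m) (Fin m ⊕ Fin m) F) *ᵥ v) = 0} =
            Nat.card (Fin m ⊕ Fin m → F)) → Even ((g : Matrix (Fin m ⊕ Fin m) (Fin m ⊕ Fin m) F) - 1).rank := by
        intro g hg hc
        have h5 := (sp_vals (m := m) (F := F) (invN (polarBilin (qPlus m F)) (Nx (eS g)))).1 ⟨_, sp_h1 g hg, hnz g hg, rfl⟩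
        have h6 := (h5.2.2 ((hA g).2 hc)).1
        simpa only [invN, finrank_Nx_S] using h6
      constructor
      · intro h3
        exact absurd (hEv a ha h3) he
      · intro h3
        have := hEv b hb h3
        rw [← h1] at this
        exact absurd this he

end sp

end Cfsg.Agent.Lib.Inv2Conv
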