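import Mathlib

set_option autoImplicit false
namespace Cfsg.Agent.Lib.InvChar

variable {G : Type*} [Group G]

theorem exists_normalizer_step [Finite G] {p : ℕ} [Fact p.Prime] {T H : Subgroup G} (hTH : T ≤ H)
    (hp : IsPGroup p T) (hdvd : p ∣ T.relIndex H) :
    ∃ T₁ : Subgroup G, T < T₁ ∧ T₁ ≤ H ∧ T₁ ≤ Subgroup.normalizer (T : Set G) ∧ IsPGroup p T₁ := by
  classical
  have hT' : IsPGroup p ↥(T.subgroupOf H) :=
    hp.of_injective (Subgroup.subgroupOfEquivOfLe hTH).toMonoidHom
      (Subgroup.subgroupOfEquivOfLe hTH).injective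
  obtain ⟨P, hP⟩ := hT'.exists_le_sylow
  have hne : T.subgroupOf H ≠ (P : Subgroup ↥H) := by
    intro h
    have := P.not_dvd_index
    rw [← h] at this
    exact this hdvd
  have hlt : T.subgroupOf H < (P : Subgroup ↥H) := lt_of_le_of_ne hP hne
  haveI : Group.IsNilpotent ↥(P : Subgroup ↥H) := P.isPGroup'.isNilpotent
  have hnc := Group.normalizerCondition_of_isNilpotent (G := ↥(P : Subgroup ↥H))
  have hlt2 : (T.subgroupOf H).subgroupOf (P : Subgroup ↥H) < ⊤ := by
    rw [lt_top_iff_ne_top]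
    intro h
    rw [Subgroup.subgroupOf_eq_top] at h
    exact hne (le_antisymm hP h)
  have hlt3 := hnc _ hlt2
  obtain ⟨y, hy, hyn⟩ := SetLike.exists_of_lt hlt3
  let T₁ : Subgroup G := (((P : Subgroup ↥H) ⊓ Subgroup.normalizer ((T.subgroupOf H : Subgroup ↥H) : Set ↥H))).map H.subtype
  refine ⟨T₁, ?_, ?_, ?_, ?_⟩
  · refine lt_of_le_of_ne ?_ ?_
    · intro t ht
      refine ⟨⟨t, hTH ht⟩, ⟨hP (by simpa [Subgroup.mem_subgroupOf] using ht), ?_⟩, rfl⟩
      refine Subgroup.mem_normalizer_iff.2 ?_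
      intro h
      rw [Subgroup.mem_subgroupOf, Subgroup.mem_subgroupOf]
      simp only [Subgroup.coe_mul, InvMemClass.coe_inv]
      constructor
      · intro hh; exact T.mul_mem (T.mul_mem ht hh) (T.inv_mem ht)
      · intro hh
        have := T.mul_mem (T.mul_mem (T.inv_mem ht) hh) ht
        simpa [mul_assoc] using this
    · intro heq
      apply hyn
      have hy1 : ((y : ↥(P : Subgroup ↥H)) : ↥H) ∈ (P : Subgroup ↥H) := y.2
      have hy2 : ((y : ↥(P : Subgroup ↥H)) : ↥H) ∈ Subgroup.normalizer ((T.subgroupOf H : Subgroup ↥H) : Set ↥H) := by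
        rw [Subgroup.mem_normalizer_iff] at hy ⊢
        intro h
        constructor
        · intro hh
          by_cases hhP : h ∈ (P : Subgroup ↥H)
          · have := (hy ⟨h, hhP⟩).1 (by simpa [Subgroup.mem_subgroupOf] using hh)
            simpa [Subgroup.mem_subgroupOf] using this
          · exact absurd (hP hh) hhP
        · intro hh
          have hhP : h ∈ (P : Subgroup ↥H) := by
            have := hP hh
            have h2 : (y : ↥H)⁻¹ * ((y : ↥H) * h * (y : ↥H)⁻¹) * (y : ↥H) ∈ (P : Subgroup ↥H) :=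
              (P : Subgroup ↥H).mul_mem ((P : Subgroup ↥H).mul_mem ((P : Subgroup ↥H).inv_mem y.2) this) y.2
            simpa [mul_assoc] using h2
          have := (hy ⟨h, hhP⟩).2 (by simpa [Subgroup.mem_subgroupOf] using hh)
          simpa [Subgroup.mem_subgroupOf] using this
      have : ((y : ↥H) : G) ∈ T₁ := ⟨(y : ↥H), ⟨hy1, hy2⟩, rfl⟩
      rw [← heq] at this
      simpa [Subgroup.mem_subgroupOf] using this
  · rintro _ ⟨x, _, rfl⟩
    exact x.2
  · rw [Subgroup.le_normalizer_iff]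
    rintro _ ⟨x, hx, rfl⟩ t ht
    have h2 : x ∈ Subgroup.normalizer ((T.subgroupOf H : Subgroup ↥H) : Set ↥H) := hx.2
    rw [Subgroup.mem_normalizer_iff] at h2
    have := (h2 ⟨t, hTH ht⟩).1 (by simpa [Subgroup.mem_subgroupOf] using ht)
    simpa [Subgroup.mem_subgroupOf] using this
  · have hP2 : IsPGroup p ↥((P : Subgroup ↥H) ⊓ Subgroup.normalizer ((T.subgroupOf H : Subgroup ↥H) : Set ↥H)) :=
      P.isPGroup'.to_inf_left
    exact hP2.map H.subtype

end Cfsg.Agent.Lib.InvChar

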