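import Mathlib
import Cfsg.Agent.Lib.CoprimeInv
import Cfsg.Agent.Lib.CosetConjCyc
import Cfsg.Agent.Lib.Glauberman2

/-!
# Coprime automorphisms fixing an involution centralizer

Ambient finite group `X`, normal subgroup `N`, an element `a` of order prime to `|N|`, an involution
`t ∈ N` such that `a` commutes with `C_N(t)`.  The `N`-conjugates of `a` form a set of points on which
every `N`-conjugate of `t` has a unique fixed point.  A counting argument shows that every pair of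
points is swapped by all the conjugates of `t` fixing some third point; from this the products of two
conjugates of `t` commuting with `a` form an `N`-invariant set.
-/

set_option autoImplicit false
set_option linter.unusedSectionVars false
set_option linter.unusedVariables false
set_option linter.style.haveILetI false

namespace Cfsg.Agent.Lib.InvolFixAut

open Subgroup

variable {X : Type*} [Group X]

/-- The points: `N`-conjugates of `a`. -/
def Om (N : Subgroup X) (a : X) : Set X := {p | ∃ x ∈ N, p = x * a * x⁻¹}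

/-- `N`-conjugates of `t`. -/
def Iv (N : Subgroup X) (t : X) : Set X := {s | ∃ x ∈ N, s = x * t * x⁻¹}

/-- The standing hypotheses. -/
structure Hyp (N : Subgroup X) (a t : X) : Prop where
  norm : N.Normal
  cop : (orderOf a).Coprime (Nat.card N)
  tN : t ∈ N
  t2 : t * t = 1
  t1 : t ≠ 1
  fix : ∀ c ∈ N, c * t = t * c → c * a = a * c

variable {N : Subgroup X} {a t : X}

theorem a_mem_Om : a ∈ Om N a := ⟨1, N.one_mem, by simp⟩

theorem t_mem_Iv : t ∈ Iv N t := ⟨1, N.one_mem, by simp⟩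

theorem conj_mem_Om {p x : X} (hp : p ∈ Om N a) (hx : x ∈ N) : x * p * x⁻¹ ∈ Om N a := by
  obtain ⟨y, hy, rfl⟩ := hp
  exact ⟨x * y, N.mul_mem hx hy, by group⟩

theorem conj_mem_Iv {s x : X} (hs : s ∈ Iv N t) (hx : x ∈ N) : x * s * x⁻¹ ∈ Iv N t := by
  obtain ⟨y, hy, rfl⟩ := hs
  exact ⟨x * y, N.mul_mem hx hy, by group⟩

namespace Hyp

variable (h : Hyp N a t)
include h

theorem Iv_le {s : X} (hs : s ∈ Iv N t) : s ∈ N := by
  obtain ⟨y, hy, rfl⟩ := hs
  exact N.mul_mem (N.mul_mem hy h.tN) (N.inv_mem hy)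

theorem Iv_sq {s : X} (hs : s ∈ Iv N t) : s * s = 1 := by
  obtain ⟨y, hy, rfl⟩ := hs
  have : y * t * y⁻¹ * (y * t * y⁻¹) = y * (t * t) * y⁻¹ := by group
  rw [this, h.t2]; group

theorem Iv_inv {s : X} (hs : s ∈ Iv N t) : s⁻¹ = s :=
  inv_eq_of_mul_eq_one_left (h.Iv_sq hs)

theorem conj_mem_Iv_of_inv_mem {s x : X} (hs : x * s * x⁻¹ ∈ Iv N t) (hx : x ∈ N) : s ∈ Iv N t := by
  have := conj_mem_Iv hs (N.inv_mem hx)
  have e : x⁻¹ * (x * s * x⁻¹) * x⁻¹⁻¹ = s := by group
  rwa [e] at this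

theorem om_mul_inv_mem {p q : X} (hp : p ∈ Om N a) (hq : q ∈ Om N a) : q * p⁻¹ ∈ N := by
  obtain ⟨x, hx, rfl⟩ := hp
  obtain ⟨y, hy, rfl⟩ := hq
  haveI := h.norm
  have h1 : a * (y⁻¹ * x) * a⁻¹ ∈ N := ‹N.Normal›.conj_mem _ (N.mul_mem (N.inv_mem hy) hx) a
  have e : y * a * y⁻¹ * (x * a * x⁻¹)⁻¹ = y * (a * (y⁻¹ * x) * a⁻¹) * x⁻¹ := by group
  rw [e]
  exact N.mul_mem (N.mul_mem hy h1) (N.inv_mem hx)

theorem orderOf_om {p : X} (hp : p ∈ Om N a) : orderOf p = orderOf a := by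
  obtain ⟨x, hx, rfl⟩ := hp
  have := orderOf_injective (MulAut.conj x).toMonoidHom (MulAut.conj x).injective a
  simpa [MulAut.conj_apply] using this

theorem mem_normal_conj_iff {p x : X} : x ∈ N ↔ p * x * p⁻¹ ∈ N := by
  constructor
  · intro hx; exact h.norm.conj_mem x hx p
  · intro hx
    have := h.norm.conj_mem _ hx p⁻¹
    have e : p⁻¹ * (p * x * p⁻¹) * p⁻¹⁻¹ = x := by group
    rwa [e] at this

theorem card_le_coprime (H : Subgroup X) (hH : H ≤ N) {p : X} (hp : p ∈ Om N a) [Finite X] :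
    (orderOf p).Coprime (Nat.card H) := by
  rw [h.orderOf_om hp]
  exact Nat.Coprime.coprime_dvd_right (Subgroup.card_dvd_of_le hH) h.cop

/-- Conjugacy of points centralizing a common set. -/
theorem conjC [Finite X] (Y : Set X) {p q : X} (hp : p ∈ Om N a) (hq : q ∈ Om N a)
    (hpY : ∀ y ∈ Y, p * y = y * p) (hqY : ∀ y ∈ Y, q * y = y * q) :
    ∃ c ∈ N, (∀ y ∈ Y, c * y = y * c) ∧ c * p * c⁻¹ = q := by
  set H : Subgroup X := N ⊓ Subgroup.centralizer Y with hH
  have hHN : H ≤ N := inf_le_left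
  have hg : p ∈ Subgroup.normalizer (H : Set X) := by
    rw [Subgroup.mem_normalizer_iff]
    intro n
    have e1 : n ∈ H ↔ n ∈ N ∧ ∀ y ∈ Y, y * n = n * y := by
      rw [hH, Subgroup.mem_inf, Subgroup.mem_centralizer_iff]
    have e2 : p * n * p⁻¹ ∈ H ↔ p * n * p⁻¹ ∈ N ∧ ∀ y ∈ Y, y * (p * n * p⁻¹) = (p * n * p⁻¹) * y := by
      rw [hH, Subgroup.mem_inf, Subgroup.mem_centralizer_iff]
    rw [e1, e2, ← h.mem_normal_conj_iff]
    refine and_congr_right fun _ => forall₂_congr fun y hy => ?_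
    have hc : y * p = p * y := (hpY y hy).symm
    have hc' : y * p⁻¹ = p⁻¹ * y := by
      have : Commute y p := hc
      exact this.inv_right
    have e0 : y * (p * n * p⁻¹) = p * (y * n) * p⁻¹ := by
      calc y * (p * n * p⁻¹) = (y * p) * n * p⁻¹ := by group
        _ = (p * y) * n * p⁻¹ := by rw [hc]
        _ = p * (y * n) * p⁻¹ := by group
    have e0' : (p * n * p⁻¹) * y = p * (n * y) * p⁻¹ := by
      calc (p * n * p⁻¹) * y = p * n * (p⁻¹ * y) := by group
        _ = p * n * (y * p⁻¹) := by rw [hc']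
        _ = p * (n * y) * p⁻¹ := by group
    rw [e0, e0']
    constructor
    · intro e
      rw [e]
    · intro e
      exact mul_left_cancel (mul_right_cancel e)
  have hcop := h.card_le_coprime H hHN hp
  have hy : q * p⁻¹ ∈ H := by
    rw [hH, Subgroup.mem_inf]
    refine ⟨h.om_mul_inv_mem hp hq, ?_⟩
    rw [Subgroup.mem_centralizer_iff]
    intro y hy
    have c1 : Commute y q := (hqY y hy).symm
    have c2 : Commute y p := (hpY y hy).symm
    exact c1.mul_right c2.inv_right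
  have hyo : q ^ orderOf p = 1 := by
    rw [h.orderOf_om hp, ← h.orderOf_om hq]
    exact pow_orderOf_eq_one q
  obtain ⟨c, hc, e⟩ := Cfsg.Agent.Lib.CosetConjCyc.exists_conj_of_coset hg hcop hy hyo
  refine ⟨c, hHN hc, ?_, e⟩
  intro y hy
  exact ((Subgroup.mem_centralizer_iff.mp (Subgroup.mem_inf.mp hc).2) y hy).symm

theorem t_comm_a : t * a = a * t := h.fix t h.tN rfl

/-- `a` is the only point commuting with `t`. -/
theorem eq_a_of_comm [Finite X] {p : X} (hp : p ∈ Om N a) (hc : p * t = t * p) : p = a := by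
  obtain ⟨c, hcN, hct, e⟩ := h.conjC {t} a_mem_Om hp
    (by rintro y rfl; exact h.t_comm_a.symm) (by rintro y rfl; exact hc)
  have h1 := h.fix c hcN (hct t rfl)
  rw [← e, h1]
  group

/-- Every conjugate of `t` has a point commuting with it. -/
theorem exists_fix {s : X} (hs : s ∈ Iv N t) : ∃ p ∈ Om N a, p * s = s * p := by
  obtain ⟨x, hx, rfl⟩ := hs
  refine ⟨x * a * x⁻¹, conj_mem_Om a_mem_Om hx, ?_⟩
  have e : t * a = a * t := h.t_comm_a
  calc x * a * x⁻¹ * (x * t * x⁻¹) = x * (a * t) * x⁻¹ := by group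
    _ = x * (t * a) * x⁻¹ := by rw [e]
    _ = x * t * x⁻¹ * (x * a * x⁻¹) := by group

/-- The point of a conjugate of `t` is unique. -/
theorem fix_unique [Finite X] {s p q : X} (hs : s ∈ Iv N t) (hp : p ∈ Om N a) (hq : q ∈ Om N a)
    (hps : p * s = s * p) (hqs : q * s = s * q) : p = q := by
  obtain ⟨x, hx, rfl⟩ := hs
  have key : ∀ r ∈ Om N a, r * (x * t * x⁻¹) = (x * t * x⁻¹) * r → r = x * a * x⁻¹ := by
    intro r hr hrs
    have hr' : x⁻¹ * r * x ∈ Om N a := by
      have := conj_mem_Om hr (N.inv_mem hx)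
      simpa using this
    have hc : (x⁻¹ * r * x) * t = t * (x⁻¹ * r * x) := by
      have e1 : (x⁻¹ * r * x) * t = x⁻¹ * (r * (x * t * x⁻¹)) * x := by group
      have e2 : t * (x⁻¹ * r * x) = x⁻¹ * ((x * t * x⁻¹) * r) * x := by group
      rw [e1, e2, hrs]
    have := h.eq_a_of_comm hr' hc
    rw [← this]; group
  rw [key p hp hps, key q hq hqs]

/-- A Sylow-type statement: a `2`-subgroup of `N` containing `t` commutes with `a`. -/
theorem sylow_fix [Finite X] {S : Subgroup X} (hSN : S ≤ N) (hS : IsPGroup 2 S) (ht : t ∈ S) :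
    ∀ y ∈ S, y * a = a * y := by
  haveI : Fact (Nat.Prime 2) := ⟨Nat.prime_two⟩
  set A₀ : Subgroup X := S ⊓ Subgroup.centralizer {a} with hA₀
  have hle : A₀ ≤ S := inf_le_left
  have hmem : ∀ y, y ∈ A₀ ↔ y ∈ S ∧ y * a = a * y := by
    intro y
    rw [hA₀, Subgroup.mem_inf, Subgroup.mem_centralizer_singleton_iff]
  have heq : A₀ = S := by
    by_contra hne
    have hlt : A₀ < S := lt_of_le_of_ne hle hne
    obtain ⟨y, hyS, hyA, hyn⟩ := Cfsg.Agent.Lib.CoprimeInv.exists_mem_normalizer_of_lt hS hlt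
    apply hyA
    have htA : t ∈ A₀ := (hmem t).2 ⟨ht, h.t_comm_a⟩
    have h1 : y * t * y⁻¹ ∈ A₀ := (Subgroup.mem_normalizer_iff.mp hyn t).mp htA
    have h2 := ((hmem _).1 h1).2
    have hyN : y ∈ N := hSN hyS
    have hp : y⁻¹ * a * y ∈ Om N a := by
      refine ⟨y⁻¹, N.inv_mem hyN, by group⟩
    have hc : (y⁻¹ * a * y) * t = t * (y⁻¹ * a * y) := by
      have e1 : (y⁻¹ * a * y) * t = y⁻¹ * (a * (y * t * y⁻¹)) * y := by group
      have e2 : t * (y⁻¹ * a * y) = y⁻¹ * ((y * t * y⁻¹) * a) * y := by group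
      rw [e1, e2, h2]
    have h3 := h.eq_a_of_comm hp hc
    refine (hmem y).2 ⟨hyS, ?_⟩
    have h4 : a * y = y * (y⁻¹ * a * y) := by group
    rw [h4, h3]
  intro y hy
  rw [← heq] at hy
  exact ((hmem y).1 hy).2

/-- A `2`-subgroup of `N` normalized by a point commutes with it. -/
theorem two_cent [Finite X] {T : Subgroup X} (hTN : T ≤ N) (hT : IsPGroup 2 T) {p : X}
    (hp : p ∈ Om N a) (hpT : p ∈ Subgroup.normalizer (T : Set X)) : ∀ y ∈ T, p * y = y * p := by
  haveI : Fact (Nat.Prime 2) := ⟨Nat.prime_two⟩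
  open Cfsg.Agent.Lib.CoprimeInv in
  obtain ⟨S₁, hS₁, hTS₁⟩ := exists_isSylowIn_ge 2 hTN hT
  have htZ : Subgroup.zpowers t ≤ N := by
    rw [Subgroup.zpowers_le]; exact h.tN
  have hZ2 : IsPGroup 2 (Subgroup.zpowers t) := by
    rw [IsPGroup.iff_card, Nat.card_zpowers]
    refine ⟨1, ?_⟩
    rw [pow_one]
    apply orderOf_eq_prime
    · rw [pow_two]; exact h.t2
    · exact h.t1
  open Cfsg.Agent.Lib.CoprimeInv in
  obtain ⟨S₀, hS₀, htS₀⟩ := exists_isSylowIn_ge 2 htZ hZ2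
  open Cfsg.Agent.Lib.CoprimeInv in
  obtain ⟨g, hgN, e⟩ := IsSylowIn.exists_conj hS₀ hS₁
  have htS₀' : t ∈ S₀ := htS₀ (Subgroup.mem_zpowers t)
  have hS₀fix := h.sylow_fix hS₀.1 hS₀.2.1 htS₀'
  set q : X := g * a * g⁻¹ with hq
  have hqOm : q ∈ Om N a := ⟨g, hgN, rfl⟩
  have hqT : ∀ y ∈ T, q * y = y * q := by
    intro y hy
    have h1 : y ∈ Cfsg.Agent.Lib.CoprimeInv.cj S₀ g := by rw [← e]; exact hTS₁ hy
    rw [Cfsg.Agent.Lib.CoprimeInv.mem_cj] at h1
    have h2 := hS₀fix _ h1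
    have e1 : q * y = g * (a * (g⁻¹ * y * g)) * g⁻¹ := by rw [hq]; group
    have e2 : y * q = g * ((g⁻¹ * y * g) * a) * g⁻¹ := by rw [hq]; group
    rw [e1, e2, h2]
  -- conjugate `q` to `p` inside `N_N(T)`
  set H : Subgroup X := N ⊓ Subgroup.normalizer (T : Set X) with hH
  have hHN : H ≤ N := inf_le_left
  have hqn : q ∈ Subgroup.normalizer (T : Set X) := by
    rw [Subgroup.mem_normalizer_iff]
    intro n
    constructor
    · intro hn
      have : q * n * q⁻¹ = n := by rw [hqT n hn]; group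
      rwa [this]
    · intro hn
      have h0 : q⁻¹ * (q * n * q⁻¹) * q = n := by group
      have h1 := hqT _ hn
      have : q * n * q⁻¹ = n := by
        have h3 : q * (q * n * q⁻¹) * q⁻¹ = q * n * q⁻¹ := by rw [h1]; group
        have h4 : q * (q * n * q⁻¹) * q⁻¹ = q * (q * n * q⁻¹ * q⁻¹) := by group
        rw [h4] at h3
        have h5 : q * n * q⁻¹ * q⁻¹ = n * q⁻¹ := by
          apply mul_left_cancel (a := q)
          rw [h3]; group
        exact mul_right_cancel h5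
      rwa [this] at hn
  have hg : q ∈ Subgroup.normalizer (H : Set X) := by
    rw [Subgroup.mem_normalizer_iff]
    intro n
    rw [hH, Subgroup.mem_inf, Subgroup.mem_inf]
    refine and_congr h.mem_normal_conj_iff ?_
    have hqn' := (Subgroup.normalizer (T : Set X)).inv_mem hqn
    constructor
    · intro hn
      exact (Subgroup.normalizer (T : Set X)).mul_mem
        ((Subgroup.normalizer (T : Set X)).mul_mem hqn hn) hqn'
    · intro hn
      have e : q⁻¹ * (q * n * q⁻¹) * q = n := by group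
      rw [← e]
      exact (Subgroup.normalizer (T : Set X)).mul_mem
        ((Subgroup.normalizer (T : Set X)).mul_mem hqn' hn) hqn
  have hcop := h.card_le_coprime H hHN hqOm
  have hy : p * q⁻¹ ∈ H := by
    rw [hH, Subgroup.mem_inf]
    exact ⟨h.om_mul_inv_mem hqOm hp, (Subgroup.normalizer (T : Set X)).mul_mem hpT
      ((Subgroup.normalizer (T : Set X)).inv_mem hqn)⟩
  have hyo : p ^ orderOf q = 1 := by
    rw [h.orderOf_om hqOm, ← h.orderOf_om hp]
    exact pow_orderOf_eq_one p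
  obtain ⟨c, hc, e2⟩ := Cfsg.Agent.Lib.CosetConjCyc.exists_conj_of_coset hg hcop hy hyo
  have hcn : c ∈ Subgroup.normalizer (T : Set X) := (Subgroup.mem_inf.mp hc).2
  intro y hy
  have h1 : c⁻¹ * y * c ∈ T := by
    have := (Subgroup.mem_normalizer_iff.mp ((Subgroup.normalizer (T : Set X)).inv_mem hcn) y).mp hy
    simpa using this
  have h2 := hqT _ h1
  rw [← e2]
  have e3 : c * q * c⁻¹ * y = c * (q * (c⁻¹ * y * c)) * c⁻¹ := by group
  have e4 : y * (c * q * c⁻¹) = c * ((c⁻¹ * y * c) * q) * c⁻¹ := by group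
  rw [e3, e4, h2]

/-- A point commuting with `Y` normalizes `N ⊓ C(Y)`. -/
theorem mem_normalizer_inf_centralizer (Y : Set X) {p : X}
    (hpY : ∀ y ∈ Y, p * y = y * p) :
    p ∈ Subgroup.normalizer ((N ⊓ Subgroup.centralizer Y : Subgroup X) : Set X) := by
  rw [Subgroup.mem_normalizer_iff]
  intro n
  have e1 : n ∈ (N ⊓ Subgroup.centralizer Y : Subgroup X) ↔ n ∈ N ∧ ∀ y ∈ Y, y * n = n * y := by
    rw [Subgroup.mem_inf, Subgroup.mem_centralizer_iff]
  have e2 : p * n * p⁻¹ ∈ (N ⊓ Subgroup.centralizer Y : Subgroup X) ↔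
      p * n * p⁻¹ ∈ N ∧ ∀ y ∈ Y, y * (p * n * p⁻¹) = (p * n * p⁻¹) * y := by
    rw [Subgroup.mem_inf, Subgroup.mem_centralizer_iff]
  rw [e1, e2, ← h.mem_normal_conj_iff]
  refine and_congr_right fun _ => forall₂_congr fun y hy => ?_
  have hc : y * p = p * y := (hpY y hy).symm
  have hc' : y * p⁻¹ = p⁻¹ * y := by
    have : Commute y p := hc
    exact this.inv_right
  have e0 : y * (p * n * p⁻¹) = p * (y * n) * p⁻¹ := by
    calc y * (p * n * p⁻¹) = (y * p) * n * p⁻¹ := by group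
      _ = (p * y) * n * p⁻¹ := by rw [hc]
      _ = p * (y * n) * p⁻¹ := by group
  have e0' : (p * n * p⁻¹) * y = p * (n * y) * p⁻¹ := by
    calc (p * n * p⁻¹) * y = p * n * (p⁻¹ * y) := by group
      _ = p * n * (y * p⁻¹) := by rw [hc']
      _ = p * (n * y) * p⁻¹ := by group
  rw [e0, e0']
  constructor
  · intro e
    rw [e]
  · intro e
    exact mul_left_cancel (mul_right_cancel e)

/-- The number of points commuting with an element of `N` is odd, if it is not zero. -/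
theorem odd_fix [Finite X] {k p : X} (hk : k ∈ N) (hp : p ∈ Om N a) (hpk : p * k = k * p) :
    Odd (Set.ncard {r | r ∈ Om N a ∧ r * k = k * r}) := by
  classical
  haveI : Fact (Nat.Prime 2) := ⟨Nat.prime_two⟩
  set C : Subgroup X := N ⊓ Subgroup.centralizer {k} with hC
  have hCN : C ≤ N := inf_le_left
  have hpC : p ∈ Subgroup.normalizer (C : Set X) :=
    h.mem_normalizer_inf_centralizer {k} (by rintro y rfl; exact hpk)
  have hAC : Subgroup.zpowers p ≤ Subgroup.normalizer (C : Set X) := by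
    rw [Subgroup.zpowers_le]; exact hpC
  have hcop : (Nat.card (Subgroup.zpowers p)).Coprime (Nat.card C) := by
    rw [Nat.card_zpowers]
    exact h.card_le_coprime C hCN hp
  haveI : Group.IsSolvable (Subgroup.zpowers p) := by
    refine Group.isSolvable_of_comm ?_
    rintro ⟨_, i, rfl⟩ ⟨_, j, rfl⟩
    apply Subtype.ext
    exact zpow_mul_comm p i j
  obtain ⟨P, hP⟩ := Cfsg.Agent.Lib.Glauberman2.exists_invariant_sylow hAC hcop
    (Or.inl inferInstance) 2
  set T : Subgroup X := (P : Subgroup C).map C.subtype with hT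
  have hTN : T ≤ N := (Subgroup.map_subtype_le _).trans hCN
  have hT2 : IsPGroup 2 T := P.2.map _
  have hpT : p ∈ Subgroup.normalizer (T : Set X) := hP (Subgroup.mem_zpowers p)
  have hcent := h.two_cent hTN hT2 hp hpT
  letI act : MulAction C X := MulAction.compHom X
    ((ConjAct.toConjAct : X ≃* ConjAct X).toMonoidHom.comp C.subtype)
  have hsmul : ∀ (c : C) (x : X), c • x = (c : X) * x * (c : X)⁻¹ := fun c x => rfl
  have horb : MulAction.orbit C p = {r | r ∈ Om N a ∧ r * k = k * r} := by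
    ext r
    constructor
    · rintro ⟨c, rfl⟩
      have hcN : (c : X) ∈ N := hCN c.2
      have hck : (c : X) * k = k * c :=
        (Subgroup.mem_centralizer_singleton_iff.mp (Subgroup.mem_inf.mp c.2).2)
      refine ⟨?_, ?_⟩
      · show c • p ∈ _
        rw [hsmul]; exact conj_mem_Om hp hcN
      · show (c • p) * k = k * (c • p)
        rw [hsmul]
        have hc1 : Commute (c : X) k := hck
        have hc2 : Commute p k := hpk
        exact ((hc1.mul_left hc2).mul_left hc1.inv_left)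
    · rintro ⟨hr, hrk⟩
      obtain ⟨c, hcN, hck, e⟩ := h.conjC {k} hp hr (by rintro y rfl; exact hpk)
        (by rintro y rfl; exact hrk)
      have hcC : c ∈ C := by
        rw [hC, Subgroup.mem_inf, Subgroup.mem_centralizer_singleton_iff]
        exact ⟨hcN, hck k rfl⟩
      exact ⟨⟨c, hcC⟩, by show (⟨c, hcC⟩ : C) • p = r; rw [hsmul]; exact e⟩
  have hle : (P : Subgroup C) ≤ MulAction.stabilizer C p := by
    intro y hy
    rw [MulAction.mem_stabilizer_iff, hsmul]
    have h1 := hcent (y : X) ⟨y, hy, rfl⟩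
    rw [h1.symm]; group
  have hidx := MulAction.index_stabilizer C p
  rw [horb] at hidx
  rw [← hidx]
  have hdvd : (MulAction.stabilizer C p).index ∣ (P : Subgroup C).index :=
    Subgroup.index_dvd_of_le hle
  have hnd : ¬ 2 ∣ (P : Subgroup C).index := P.not_dvd_index
  rw [← Nat.not_even_iff_odd, even_iff_two_dvd]
  exact fun h2 => hnd (h2.trans hdvd)

/-- Conjugates of `t` mapping `a` to the same point have the same point. -/
theorem same_fix [Finite X] {s₁ s₂ w : X} (hs₁ : s₁ ∈ Iv N t) (hs₂ : s₂ ∈ Iv N t)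
    (e : s₁ * a * s₁⁻¹ = s₂ * a * s₂⁻¹) (hw : w ∈ Om N a) (hws : w * s₁ = s₁ * w) :
    w * s₂ = s₂ * w := by
  classical
  haveI := Fintype.ofFinite X
  have h11 : s₁ * s₁ = 1 := h.Iv_sq hs₁
  have h22 : s₂ * s₂ = 1 := h.Iv_sq hs₂
  have hi1 : s₁⁻¹ = s₁ := h.Iv_inv hs₁
  have hi2 : s₂⁻¹ = s₂ := h.Iv_inv hs₂
  set k : X := s₁ * s₂ with hk
  have hkN : k ∈ N := N.mul_mem (h.Iv_le hs₁) (h.Iv_le hs₂)
  have hak : a * k = k * a := by
    rw [hi1, hi2] at e
    have e1 : s₂ * a = s₁ * a * s₁ * s₂ := by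
      calc s₂ * a = s₂ * a * (s₂ * s₂) := by rw [h22]; group
        _ = (s₂ * a * s₂) * s₂ := by group
        _ = (s₁ * a * s₁) * s₂ := by rw [e]
    rw [hk]
    calc a * (s₁ * s₂) = (s₁ * s₁) * a * (s₁ * s₂) := by rw [h11]; group
      _ = s₁ * (s₁ * a * s₁ * s₂) := by group
      _ = s₁ * (s₂ * a) := by rw [e1]
      _ = s₁ * s₂ * a := by group
  have hodd := h.odd_fix hkN a_mem_Om hak
  set F : Finset X := Finset.univ.filter (fun r => r ∈ Om N a ∧ r * k = k * r) with hF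
  have hcardF : Set.ncard {r | r ∈ Om N a ∧ r * k = k * r} = F.card := by
    rw [← Set.ncard_coe_finset]
    congr 1
    ext r
    simp [hF]
  rw [hcardF] at hodd
  have hgmem : ∀ r ∈ F, s₁ * r * s₁ ∈ F := by
    intro r hr
    obtain ⟨hr1, hr2⟩ := (Finset.mem_filter.mp hr).2
    refine Finset.mem_filter.mpr ⟨Finset.mem_univ _, ?_, ?_⟩
    · have := conj_mem_Om hr1 (h.Iv_le hs₁)
      rwa [hi1] at this
    · rw [hk] at hr2 ⊢
      have hr3 : r * s₂ * s₁ = s₂ * s₁ * r := by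
        have e1 : (s₁ * s₂) * (r * s₂ * s₁) = r := by
          calc (s₁ * s₂) * (r * s₂ * s₁) = ((s₁ * s₂) * r) * s₂ * s₁ := by group
            _ = (r * (s₁ * s₂)) * s₂ * s₁ := by rw [hr2]
            _ = r * s₁ * (s₂ * s₂) * s₁ := by group
            _ = r * (s₁ * s₁) := by rw [h22]; group
            _ = r := by rw [h11]; group
        have e2 : (s₁ * s₂) * (s₂ * s₁ * r) = r := by
          calc (s₁ * s₂) * (s₂ * s₁ * r) = s₁ * (s₂ * s₂) * s₁ * r := by group
            _ = (s₁ * s₁) * r := by rw [h22]; group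
            _ = r := by rw [h11]; group
        exact mul_left_cancel (e1.trans e2.symm)
      calc s₁ * r * s₁ * (s₁ * s₂) = s₁ * r * (s₁ * s₁) * s₂ := by group
        _ = s₁ * (r * s₂ * (s₁ * s₁)) := by rw [h11]; group
        _ = s₁ * ((r * s₂ * s₁) * s₁) := by group
        _ = s₁ * ((s₂ * s₁ * r) * s₁) := by rw [hr3]
        _ = s₁ * s₂ * (s₁ * r * s₁) := by group
  have hex : ∃ w₀ ∈ F, s₁ * w₀ * s₁ = w₀ := by
    by_contra hno
    push Not at hno
    have hsum : ∑ x ∈ F, (1 : ZMod 2) = 0 := by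
      refine Finset.sum_involution (fun r _ => s₁ * r * s₁) ?_ ?_ hgmem ?_
      · intro _ _; decide
      · intro r hr _; exact hno r hr
      · intro r _
        calc s₁ * (s₁ * r * s₁) * s₁ = (s₁ * s₁) * r * (s₁ * s₁) := by group
          _ = r := by rw [h11]; group
    rw [Finset.sum_const, nsmul_eq_mul, mul_one] at hsum
    have h2 : 2 ∣ F.card := by
      rwa [ZMod.natCast_eq_zero_iff] at hsum
    rw [← Nat.not_even_iff_odd] at hodd
    exact hodd (even_iff_two_dvd.mpr h2)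
  obtain ⟨w₀, hw₀F, hw₀⟩ := hex
  obtain ⟨hw₀1, hw₀2⟩ := (Finset.mem_filter.mp hw₀F).2
  have hw₀c : w₀ * s₁ = s₁ * w₀ := by
    nth_rewrite 1 [← hw₀]
    calc s₁ * w₀ * s₁ * s₁ = s₁ * w₀ * (s₁ * s₁) := by group
      _ = s₁ * w₀ := by rw [h11]; group
  have hww : w = w₀ := h.fix_unique hs₁ hw hw₀1 hws hw₀c
  subst hww
  have hs2 : s₂ = s₁ * k := by
    rw [hk]
    calc s₂ = (s₁ * s₁) * s₂ := by rw [h11]; group
      _ = s₁ * (s₁ * s₂) := by group
  rw [hs2]
  have c1 : Commute w s₁ := hws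
  have c2 : Commute w k := hw₀2
  exact c1.mul_right c2

/-- The main count: for every point `q ≠ a` there is a point `w` such that all the conjugates of `t`
commuting with `w` map `a` to `q`. -/
theorem key_count [Finite X] {q : X} (hq : q ∈ Om N a) (hqa : q ≠ a) :
    ∃ w ∈ Om N a, ∀ u ∈ Iv N t, u * w = w * u → u * a * u⁻¹ = q := by
  classical
  haveI := Fintype.ofFinite X
  set Ω : Finset X := Finset.univ.filter (· ∈ Om N a) with hΩ
  set I : Finset X := Finset.univ.filter (· ∈ Iv N t) with hI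
  let J : X → Finset X := fun p => I.filter (fun s => s * p = p * s)
  have memΩ : ∀ {p}, p ∈ Ω ↔ p ∈ Om N a := by intro p; simp [hΩ]
  have memI : ∀ {s}, s ∈ I ↔ s ∈ Iv N t := by intro s; simp [hI]
  have memJ : ∀ {p s}, s ∈ J p ↔ s ∈ Iv N t ∧ s * p = p * s := by
    intro p s; simp [J, hI]
  set c : ℕ := (J a).card with hc
  have hJ : ∀ p ∈ Ω, (J p).card = c := by
    intro p hp
    obtain ⟨x, hx, rfl⟩ := memΩ.mp hp
    refine Finset.card_bij (fun s _ => x⁻¹ * s * x) ?_ ?_ ?_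
    · intro s hs
      obtain ⟨hs1, hs2⟩ := memJ.mp hs
      refine memJ.mpr ⟨?_, ?_⟩
      · have := conj_mem_Iv hs1 (N.inv_mem hx)
        simpa using this
      · calc x⁻¹ * s * x * a = x⁻¹ * (s * (x * a * x⁻¹)) * x := by group
          _ = x⁻¹ * ((x * a * x⁻¹) * s) * x := by rw [hs2]
          _ = a * (x⁻¹ * s * x) := by group
    · intro s₁ _ s₂ _ e
      have := mul_left_cancel (mul_right_cancel e)
      exact this
    · intro s hs
      obtain ⟨hs1, hs2⟩ := memJ.mp hs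
      refine ⟨x * s * x⁻¹, memJ.mpr ⟨conj_mem_Iv hs1 hx, ?_⟩, by group⟩
      calc x * s * x⁻¹ * (x * a * x⁻¹) = x * (s * a) * x⁻¹ := by group
        _ = x * (a * s) * x⁻¹ := by rw [hs2]
        _ = x * a * x⁻¹ * (x * s * x⁻¹) := by group
  have hIcard : I.card = Ω.card * c := by
    have hbip := Finset.sum_card_bipartiteAbove_eq_sum_card_bipartiteBelow (s := I) (t := Ω)
      (fun s p => s * p = p * s)
    have hL : ∀ s ∈ I, (Finset.bipartiteAbove (fun s p => s * p = p * s) Ω s).card = 1 := by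
      intro s hs
      obtain ⟨p, hp, hps⟩ := h.exists_fix (memI.mp hs)
      rw [Finset.card_eq_one]
      refine ⟨p, ?_⟩
      ext r
      simp only [Finset.bipartiteAbove, Finset.mem_filter, Finset.mem_singleton]
      constructor
      · rintro ⟨hr, hrs⟩
        exact h.fix_unique (memI.mp hs) (memΩ.mp hr) hp hrs.symm hps
      · rintro rfl
        exact ⟨memΩ.mpr hp, hps.symm⟩
    have hR : ∀ p ∈ Ω, (Finset.bipartiteBelow (fun s p => s * p = p * s) I p).card = c := by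
      intro p hp
      exact hJ p hp
    rw [Finset.sum_congr rfl hL, Finset.sum_congr rfl hR, Finset.sum_const, Finset.sum_const] at hbip
    simpa using hbip
  have haΩ : a ∈ Ω := memΩ.mpr a_mem_Om
  have hcpos : 0 < c := by
    apply Finset.card_pos.mpr
    exact ⟨t, memJ.mpr ⟨t_mem_Iv, h.t_comm_a⟩⟩
  set S₀ : Finset X := I \ J a with hS₀
  have hS₀card : S₀.card = (Ω.erase a).card * c := by
    have h1 : J a ⊆ I := Finset.filter_subset _ _
    rw [hS₀, Finset.card_sdiff_of_subset h1, Finset.card_erase_of_mem haΩ, hIcard, Nat.sub_mul, one_mul]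
  let f : X → X := fun s => s * a * s⁻¹
  have hmaps : ∀ s ∈ S₀, f s ∈ Ω.erase a := by
    intro s hs
    obtain ⟨hs1, hs2⟩ := Finset.mem_sdiff.mp hs
    refine Finset.mem_erase.mpr ⟨?_, memΩ.mpr (conj_mem_Om a_mem_Om (h.Iv_le (memI.mp hs1)))⟩
    intro e
    apply hs2
    refine memJ.mpr ⟨memI.mp hs1, ?_⟩
    have e' : s * a * s⁻¹ = a := e
    calc s * a = s * a * s⁻¹ * s := by group
      _ = a * s := by rw [e']
  have hfib := Finset.card_eq_sum_card_fiberwise hmaps
  have hbd : ∀ b ∈ Ω.erase a, (S₀.filter (fun s => f s = b)).card ≤ c := by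
    intro b _
    by_cases hne : (S₀.filter (fun s => f s = b)).Nonempty
    · obtain ⟨s₁, hs₁⟩ := hne
      obtain ⟨hs₁S, hs₁b⟩ := Finset.mem_filter.mp hs₁
      have hs₁I := memI.mp (Finset.mem_sdiff.mp hs₁S).1
      obtain ⟨w, hw, hws⟩ := h.exists_fix hs₁I
      rw [← hJ w (memΩ.mpr hw)]
      apply Finset.card_le_card
      intro s₂ hs₂
      obtain ⟨hs₂S, hs₂b⟩ := Finset.mem_filter.mp hs₂
      have hs₂I := memI.mp (Finset.mem_sdiff.mp hs₂S).1
      refine memJ.mpr ⟨hs₂I, ?_⟩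
      exact (h.same_fix hs₁I hs₂I (hs₁b.trans hs₂b.symm) hw hws).symm
    · rw [Finset.not_nonempty_iff_eq_empty] at hne
      rw [hne]; simp
  have heq : ∀ b ∈ Ω.erase a, (S₀.filter (fun s => f s = b)).card = c := by
    intro b hb
    by_contra hne
    have hlt : (S₀.filter (fun s => f s = b)).card < c := lt_of_le_of_ne (hbd b hb) hne
    have hsum := Finset.sum_lt_sum hbd ⟨b, hb, hlt⟩
    rw [← hfib, Finset.sum_const, hS₀card, smul_eq_mul] at hsum
    exact lt_irrefl _ hsum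
  have hqE : q ∈ Ω.erase a := Finset.mem_erase.mpr ⟨hqa, memΩ.mpr hq⟩
  have hcq := heq q hqE
  have hne : (S₀.filter (fun s => f s = q)).Nonempty := by
    apply Finset.card_pos.mp
    rw [hcq]; exact hcpos
  obtain ⟨s₁, hs₁⟩ := hne
  obtain ⟨hs₁S, hs₁b⟩ := Finset.mem_filter.mp hs₁
  have hs₁I := memI.mp (Finset.mem_sdiff.mp hs₁S).1
  obtain ⟨w, hw, hws⟩ := h.exists_fix hs₁I
  refine ⟨w, hw, ?_⟩
  have hsub : S₀.filter (fun s => f s = q) ⊆ J w := by
    intro s₂ hs₂
    obtain ⟨hs₂S, hs₂b⟩ := Finset.mem_filter.mp hs₂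
    have hs₂I := memI.mp (Finset.mem_sdiff.mp hs₂S).1
    refine memJ.mpr ⟨hs₂I, ?_⟩
    exact (h.same_fix hs₁I hs₂I (hs₁b.trans hs₂b.symm) hw hws).symm
  have hsEq := Finset.eq_of_subset_of_card_le hsub (by rw [hJ w (memΩ.mpr hw), hcq])
  intro u huI huw
  have hu : u ∈ J w := memJ.mpr ⟨huI, huw⟩
  rw [← hsEq] at hu
  exact (Finset.mem_filter.mp hu).2

end Hyp

/-- Products of two conjugates of `t` commuting with the point `p`. -/
def Ypr (N : Subgroup X) (t p : X) : Set X :=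
  {y | ∃ u₁ ∈ Iv N t, ∃ u₂ ∈ Iv N t, u₁ * p = p * u₁ ∧ u₂ * p = p * u₂ ∧ y = u₁ * u₂}

theorem Ypr_conj {p c y : X} (hc : c ∈ N) (hy : y ∈ Ypr N t p) :
    c * y * c⁻¹ ∈ Ypr N t (c * p * c⁻¹) := by
  obtain ⟨u₁, hu₁, u₂, hu₂, h1, h2, rfl⟩ := hy
  refine ⟨c * u₁ * c⁻¹, conj_mem_Iv hu₁ hc, c * u₂ * c⁻¹, conj_mem_Iv hu₂ hc, ?_, ?_, by group⟩
  · calc c * u₁ * c⁻¹ * (c * p * c⁻¹) = c * (u₁ * p) * c⁻¹ := by group
      _ = c * (p * u₁) * c⁻¹ := by rw [h1]
      _ = c * p * c⁻¹ * (c * u₁ * c⁻¹) := by group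
  · calc c * u₂ * c⁻¹ * (c * p * c⁻¹) = c * (u₂ * p) * c⁻¹ := by group
      _ = c * (p * u₂) * c⁻¹ := by rw [h2]
      _ = c * p * c⁻¹ * (c * u₂ * c⁻¹) := by group

/-- If `c ∈ N` centralizes `Y(p)` then `Y(c p c⁻¹) = Y(p)`. -/
theorem Ypr_eq_of_centralizes {p c : X} (hc : c ∈ N) (hcY : ∀ y ∈ Ypr N t p, c * y = y * c) :
    Ypr N t (c * p * c⁻¹) = Ypr N t p := by
  ext y
  constructor
  · intro hy
    have h1 := Ypr_conj (N.inv_mem hc) hy
    have e : c⁻¹ * (c * p * c⁻¹) * c⁻¹⁻¹ = p := by group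
    rw [e] at h1
    have h2 := hcY _ h1
    have e2 : c⁻¹ * y * c⁻¹⁻¹ = y := by
      have e3 : c * (c⁻¹ * y * c⁻¹⁻¹) = y * c := by group
      rw [h2] at e3
      exact mul_right_cancel e3
    rwa [e2] at h1
  · intro hy
    have h1 := Ypr_conj hc hy
    have h2 := hcY _ hy
    have e : c * y * c⁻¹ = y := by rw [h2]; group
    rwa [e] at h1

namespace Hyp

variable (h : Hyp N a t)
include h

theorem Ypr_const [Finite X] {q : X} (hq : q ∈ Om N a) : Ypr N t q = Ypr N t a := by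
  by_cases hqa : q = a
  · rw [hqa]
  obtain ⟨w, hw, hwk⟩ := h.key_count hq hqa
  have hcomm : ∀ y ∈ Ypr N t w, (w * y = y * w) ∧ (a * y = y * a) ∧ (q * y = y * q) := by
    rintro y ⟨u₁, hu₁, u₂, hu₂, h1, h2, rfl⟩
    have c1 : Commute u₁ w := h1
    have c2 : Commute u₂ w := h2
    have i1 : u₁⁻¹ = u₁ := h.Iv_inv hu₁
    have i2 : u₂⁻¹ = u₂ := h.Iv_inv hu₂
    have e1 := hwk u₁ hu₁ h1
    have e2 := hwk u₂ hu₂ h2
    rw [i1] at e1
    rw [i2] at e2
    have h11 := h.Iv_sq hu₁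
    have h22 := h.Iv_sq hu₂
    refine ⟨((c1.mul_left c2).symm), ?_, ?_⟩
    · calc a * (u₁ * u₂) = (u₁ * u₁) * a * (u₁ * u₂) := by rw [h11]; group
        _ = u₁ * (u₁ * a * u₁) * u₂ := by group
        _ = u₁ * q * u₂ := by rw [e1]
        _ = u₁ * (u₂ * a * u₂) * u₂ := by rw [e2]
        _ = u₁ * u₂ * a * (u₂ * u₂) := by group
        _ = u₁ * u₂ * a := by rw [h22]; group
    · calc q * (u₁ * u₂) = (u₁ * a * u₁) * (u₁ * u₂) := by rw [e1]
        _ = u₁ * a * (u₁ * u₁) * u₂ := by group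
        _ = u₁ * a * u₂ := by rw [h11]; group
        _ = u₁ * (a * u₂) := by group
        _ = u₁ * ((u₂ * u₂) * a * u₂) := by rw [h22]; group
        _ = u₁ * u₂ * (u₂ * a * u₂) := by group
        _ = u₁ * u₂ * q := by rw [e2]
  have step : ∀ r ∈ Om N a, (∀ y ∈ Ypr N t w, r * y = y * r) → Ypr N t r = Ypr N t w := by
    intro r hr hry
    obtain ⟨c, hcN, hcY, e⟩ := h.conjC (Ypr N t w) hw hr (fun y hy => (hcomm y hy).1) hry
    rw [← e]
    exact Ypr_eq_of_centralizes hcN hcY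
  rw [step q hq (fun y hy => (hcomm y hy).2.2), step a a_mem_Om (fun y hy => (hcomm y hy).2.1)]

/-- The set `Y(a)` is invariant under conjugation by `N`. -/
theorem Ypr_conj_mem [Finite X] {x y : X} (hx : x ∈ N) (hy : y ∈ Ypr N t a) :
    x * y * x⁻¹ ∈ Ypr N t a := by
  have h1 := Ypr_conj hx hy
  rwa [h.Ypr_const (conj_mem_Om a_mem_Om hx)] at h1

theorem Ypr_comm {y : X} (hy : y ∈ Ypr N t a) : y * a = a * y := by
  obtain ⟨u₁, _, u₂, _, h1, h2, rfl⟩ := hy
  have c1 : Commute u₁ a := h1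
  have c2 : Commute u₂ a := h2
  exact c1.mul_left c2

end Hyp

end Cfsg.Agent.Lib.InvolFixAut
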