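import Mathlib

/-!
# The Baer trick and the quadratic map for a coprime action

Hypotheses `CSetup`: a group `P` of odd order, a coprime group of operators `S` fixing `Hp`
pointwise, `A` normal with `A/Z` abelian, `Z` central in `A ∩ Hp`, `P = A Hp`, and `S` has no fixed
points on `A/Z`.  We get a map `Q : A → Z` with `Q (x y) = Q x Q y [x,y]`, and the involution
`x h ↦ Q x x⁻¹ h` of `P`.
-/

set_option autoImplicit false
set_option linter.unusedVariables false
set_option linter.unusedSectionVars false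
set_option linter.style.haveILetI false

namespace Cfsg.Agent.Lib.IsaBaer

universe u v

section Defs

variable {P : Type u} {S : Type v} [Group P] [Group S]

/-- Hypotheses of the central theorem. -/
structure CSetup (a : S →* MulAut P) (A Hp Z : Subgroup P) : Prop where
  odd : Odd (Nat.card P)
  cop : (Nat.card P).Coprime (Nat.card S)
  fix : ∀ s, ∀ h ∈ Hp, a s h = h
  cen : ∀ z ∈ Z, ∀ p : P, z * p = p * z
  ZA : Z ≤ A
  ZH : Z ≤ Hp
  Anorm : ∀ p : P, ∀ x ∈ A, p * x * p⁻¹ ∈ A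
  Ainv : ∀ s, ∀ x ∈ A, a s x ∈ A
  comm : ∀ x ∈ A, ∀ y ∈ A, x * y * x⁻¹ * y⁻¹ ∈ Z
  gen : ∀ p : P, ∃ x ∈ A, ∃ h ∈ Hp, p = x * h
  int : ∀ x ∈ A, x ∈ Hp → x ∈ Z
  fpf : ∀ x ∈ A, (∀ s, x⁻¹ * a s x ∈ Z) → x ∈ Z

/-- The commutator. -/
def cm (x y : P) : P := x * y * x⁻¹ * y⁻¹

theorem cm_inv (x y : P) : (cm x y)⁻¹ = cm y x := by
  simp only [cm]
  group

theorem mul_eq_cm (x y : P) : x * y = cm x y * (y * x) := by
  simp only [cm]
  group

variable {a : S →* MulAut P} {A Hp Z : Subgroup P}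

namespace CSetup

variable (h : CSetup a A Hp Z)
include h

theorem cm_mem {x y : P} (hx : x ∈ A) (hy : y ∈ A) : cm x y ∈ Z := h.comm x hx y hy

theorem cen_pow {z : P} (hz : z ∈ Z) (k : ℕ) (p : P) : z ^ k * p = p * z ^ k :=
  h.cen _ (Z.pow_mem hz k) p

theorem cm_cen_left {z : P} (hz : z ∈ Z) (y : P) : cm z y = 1 := by
  simp only [cm]
  rw [h.cen z hz y]
  group

theorem cm_cen_right {z : P} (hz : z ∈ Z) (x : P) : cm x z = 1 := by
  rw [← cm_inv, h.cm_cen_left hz, inv_one]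

theorem cm_mul_right {w x y : P} (hw : w ∈ A) (hx : x ∈ A) (hy : y ∈ A) :
    cm w (x * y) = cm w x * cm w y := by
  have hu := h.cen _ (h.cm_mem hw hy)
  have h1 : cm w x * cm w y = w * x * w⁻¹ * (cm w y * x⁻¹) := by
    rw [hu x⁻¹]
    simp only [cm]
    group
  rw [h1]
  simp only [cm]
  group

theorem cm_mul_left {w x y : P} (hw : w ∈ A) (hx : x ∈ A) (hy : y ∈ A) :
    cm (x * y) w = cm x w * cm y w := by
  rw [← cm_inv, h.cm_mul_right hw hx hy, mul_inv_rev, cm_inv, cm_inv]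
  exact h.cen _ (h.cm_mem hy hw) _

theorem pow_two_rr [Finite P] (p : P) : ∀ r : ℕ, 2 * r = Nat.card P + 1 → p ^ (2 * r) = p := by
  intro r hr
  rw [hr, pow_succ, pow_card_eq_one', one_mul]

end CSetup

/-- The exponent `r` with `2 r = |P| + 1`. -/
noncomputable def rr (P : Type u) : ℕ := (Nat.card P + 1) / 2

theorem two_rr {P : Type u} (hodd : Odd (Nat.card P)) : 2 * rr P = Nat.card P + 1 := by
  obtain ⟨k, hk⟩ := hodd
  unfold rr
  omega

/-- The Baer product. -/
noncomputable def st (x y : P) : P := x * y * (cm y x) ^ rr P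

/-- The additive model of `A`. -/
@[ext] structure BaerT (a : S →* MulAut P) (A Hp Z : Subgroup P) where
  val : P
  mem : val ∈ A

section Laws

variable [Finite P] (h : CSetup a A Hp Z)
include h

theorem st_mem {x y : P} (hx : x ∈ A) (hy : y ∈ A) : st x y ∈ A :=
  A.mul_mem (A.mul_mem hx hy) (A.pow_mem (h.ZA (h.cm_mem hy hx)) _)

theorem st_comm {x y : P} (hx : x ∈ A) (hy : y ∈ A) : st x y = st y x := by
  have hu := h.cm_mem hx hy
  have h2r := h.pow_two_rr (cm x y) (rr P) (two_rr h.odd)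
  simp only [st]
  rw [← cm_inv x y, mul_eq_cm x y, h.cen _ hu (y * x), mul_assoc]
  congr 1
  rw [inv_pow]
  calc cm x y * (cm x y ^ rr P)⁻¹ = cm x y ^ (2 * rr P) * (cm x y ^ rr P)⁻¹ := by rw [h2r]
    _ = cm x y ^ rr P := by
      rw [two_mul, pow_add]
      group

theorem st_of_mem_left {x y : P} (hx : x ∈ Z) : st x y = x * y := by
  simp only [st]
  rw [h.cm_cen_right hx, one_pow, mul_one]

theorem st_of_mem_right {x y : P} (hy : y ∈ Z) : st x y = x * y := by
  simp only [st]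
  rw [h.cm_cen_left hy, one_pow, mul_one]

theorem st_assoc {x y w : P} (hx : x ∈ A) (hy : y ∈ A) (hw : w ∈ A) :
    st (st x y) w = st x (st y w) := by
  have hr1 : (cm y x) ^ rr P ∈ Z := Z.pow_mem (h.cm_mem hy hx) _
  have hr3 : (cm w y) ^ rr P ∈ Z := Z.pow_mem (h.cm_mem hw hy) _
  have hr2 : (cm w x) ^ rr P ∈ Z := Z.pow_mem (h.cm_mem hw hx) _
  have e1 : cm w (x * y * (cm y x) ^ rr P) = cm w x * cm w y := by
    rw [h.cm_mul_right hw (A.mul_mem hx hy) (h.ZA hr1), h.cm_cen_right hr1, mul_one,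
      h.cm_mul_right hw hx hy]
  have e2 : cm (y * w * (cm w y) ^ rr P) x = cm y x * cm w x := by
    rw [h.cm_mul_left hx (A.mul_mem hy hw) (h.ZA hr3), h.cm_cen_left hr3, mul_one,
      h.cm_mul_left hx hy hw]
  have c12 : Commute (cm w x) (cm w y) := h.cen _ (h.cm_mem hw hx) _
  have c13 : Commute (cm y x) (cm w x) := h.cen _ (h.cm_mem hy hx) _
  simp only [st]
  rw [e1, e2, c12.mul_pow, c13.mul_pow]
  set r1 := (cm y x) ^ rr P
  set r2 := (cm w x) ^ rr P
  set r3 := (cm w y) ^ rr P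
  calc x * y * r1 * w * (r2 * r3) = x * y * (r1 * w) * (r2 * r3) := by group
    _ = x * y * (w * r1) * (r2 * r3) := by rw [h.cen _ hr1 w]
    _ = x * (y * w) * (r1 * r2 * r3) := by group
    _ = x * (y * w) * (r3 * (r1 * r2)) := by
        congr 1
        exact (h.cen _ hr3 _).symm
    _ = x * (y * w * r3) * (r1 * r2) := by group

end Laws

section Instance

variable [Finite P] [hf : Fact (CSetup a A Hp Z)]

noncomputable instance : Mul (BaerT a A Hp Z) :=
  ⟨fun x y => ⟨st x.val y.val, st_mem hf.out x.mem y.mem⟩⟩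

instance : One (BaerT a A Hp Z) := ⟨⟨1, A.one_mem⟩⟩

instance : Inv (BaerT a A Hp Z) := ⟨fun x => ⟨x.val⁻¹, A.inv_mem x.mem⟩⟩

theorem BaerT.mul_val (x y : BaerT a A Hp Z) : (x * y).val = st x.val y.val := rfl

theorem BaerT.one_val : (1 : BaerT a A Hp Z).val = 1 := rfl

theorem BaerT.inv_val (x : BaerT a A Hp Z) : (x⁻¹).val = x.val⁻¹ := rfl

noncomputable instance : CommGroup (BaerT a A Hp Z) :=
  { Group.ofLeftAxioms
      (fun x y w => BaerT.ext (st_assoc hf.out x.mem y.mem w.mem))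
      (fun x => BaerT.ext (by
        show st 1 x.val = x.val
        rw [st_of_mem_left hf.out Z.one_mem, one_mul]))
      (fun x => BaerT.ext (by
        show st x.val⁻¹ x.val = 1
        have h1 : cm x.val x.val⁻¹ = 1 := by simp [cm]
        simp [st, h1])) with
    mul_comm := fun x y => BaerT.ext (st_comm hf.out x.mem y.mem) }

/-- `a s` on the additive model. -/
noncomputable def aB (s : S) : BaerT a A Hp Z →* BaerT a A Hp Z where
  toFun x := ⟨a s x.val, hf.out.Ainv s _ x.mem⟩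
  map_one' := BaerT.ext (map_one (a s))
  map_mul' x y := BaerT.ext (by
    show a s (st x.val y.val) = st (a s x.val) (a s y.val)
    simp [st, cm, map_mul, map_pow, map_inv])

theorem aB_val (s : S) (x : BaerT a A Hp Z) : (aB s x).val = a s x.val := rfl

theorem aB_mul_apply (s t : S) (x : BaerT a A Hp Z) : aB (s * t) x = aB s (aB t x) := by
  apply BaerT.ext
  show a (s * t) x.val = a s (a t x.val)
  rw [map_mul]
  rfl

/-- Conjugation on the additive model. -/
noncomputable def cB (p : P) : BaerT a A Hp Z →* BaerT a A Hp Z where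
  toFun x := ⟨p * x.val * p⁻¹, hf.out.Anorm p _ x.mem⟩
  map_one' := BaerT.ext (by
    show p * 1 * p⁻¹ = 1
    simp)
  map_mul' x y := BaerT.ext (by
    show p * st x.val y.val * p⁻¹ = st (p * x.val * p⁻¹) (p * y.val * p⁻¹)
    have h := hf.out
    have h1 : cm (p * y.val * p⁻¹) (p * x.val * p⁻¹) = p * cm y.val x.val * p⁻¹ := by
      simp only [cm]
      group
    have h2 : p * cm y.val x.val * p⁻¹ = cm y.val x.val := by
      rw [← h.cen _ (h.cm_mem y.mem x.mem) p]
      group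
    simp only [st]
    rw [h1, h2]
    have h3 := h.cen _ (Z.pow_mem (h.cm_mem y.mem x.mem) (rr P))
    calc p * (x.val * y.val * cm y.val x.val ^ rr P) * p⁻¹
        = p * (x.val * y.val) * (cm y.val x.val ^ rr P * p⁻¹) := by group
      _ = p * (x.val * y.val) * (p⁻¹ * cm y.val x.val ^ rr P) := by rw [h3]
      _ = _ := by group)

theorem cB_val (p : P) (x : BaerT a A Hp Z) : (cB p x).val = p * x.val * p⁻¹ := rfl

theorem pow_val_of_mem {x : BaerT a A Hp Z} (hx : x.val ∈ Z) (k : ℕ) :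
    (x ^ k).val = x.val ^ k := by
  induction k with
  | zero =>
      rw [pow_zero, pow_zero]
      rfl
  | succ k ih =>
      rw [pow_succ, BaerT.mul_val, ih, st_of_mem_right hf.out hx, pow_succ]

variable [Fintype S]

/-- The norm on the additive model. -/
noncomputable def FB (x : BaerT a A Hp Z) : BaerT a A Hp Z := ∏ s : S, aB s x

theorem FB_mul (x y : BaerT a A Hp Z) : FB (x * y) = FB x * FB y := by
  simp only [FB, map_mul]
  exact Finset.prod_mul_distrib

theorem aB_FB (s : S) (x : BaerT a A Hp Z) : aB s (FB x) = FB x := by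
  simp only [FB, map_prod]
  simp only [← aB_mul_apply]
  exact Fintype.prod_equiv (Equiv.mulLeft s) _ _ (fun t => rfl)

theorem FB_aB (s : S) (x : BaerT a A Hp Z) : FB (aB s x) = FB x := by
  simp only [FB]
  simp only [← aB_mul_apply]
  exact Fintype.prod_equiv (Equiv.mulRight s) _ _ (fun t => rfl)

theorem FB_mem (x : BaerT a A Hp Z) : (FB x).val ∈ Z := by
  apply hf.out.fpf _ (FB x).mem
  intro s
  have h1 : a s (FB x).val = (FB x).val := congrArg BaerT.val (aB_FB s x)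
  rw [h1, inv_mul_cancel]
  exact Z.one_mem

theorem FB_of_mem {x : BaerT a A Hp Z} (hx : x.val ∈ Z) : (FB x).val = x.val ^ Nat.card S := by
  have h1 : ∀ s : S, aB s x = x := fun s =>
    BaerT.ext (hf.out.fix s _ (hf.out.ZH hx))
  simp only [FB, h1, Finset.prod_const, Finset.card_univ, ← Nat.card_eq_fintype_card]
  exact pow_val_of_mem hx _

theorem FB_cB {p : P} (hp : p ∈ Hp) (x : BaerT a A Hp Z) : FB (cB p x) = FB x := by
  have h1 : ∀ s : S, aB s (cB p x) = cB p (aB s x) := by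
    intro s
    apply BaerT.ext
    show a s (p * x.val * p⁻¹) = p * a s x.val * p⁻¹
    rw [map_mul, map_mul, map_inv, hf.out.fix s p hp]
  have h2 : cB p (FB x) = FB x := by
    apply BaerT.ext
    show p * (FB x).val * p⁻¹ = (FB x).val
    rw [← hf.out.cen _ (FB_mem x) p]
    group
  simp only [FB, h1] at h2 ⊢
  rw [← map_prod]
  exact h2

end Instance

theorem exists_pow_inv [Finite P] {n : ℕ} (hcop : (Nat.card P).Coprime n) :
    ∃ m : ℕ, ∀ p : P, p ^ (n * m) = p := by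
  by_cases he : 1 < Nat.card P
  · obtain ⟨m, -, hm⟩ := Nat.exists_mul_mod_eq_one_of_coprime hcop.symm he
    refine ⟨m, fun p => ?_⟩
    rw [← Nat.mod_add_div (n * m) (Nat.card P), hm, pow_add, pow_one, pow_mul, pow_card_eq_one',
      one_pow, mul_one]
  · have h1 : Nat.card P = 1 := by
      have : 0 < Nat.card P := Nat.card_pos
      omega
    haveI := (Nat.card_eq_one_iff_unique.mp h1).1
    exact ⟨1, fun p => Subsingleton.elim _ _⟩

/-- **The quadratic map.** -/
theorem exists_Q [Finite P] [Fintype S] (h : CSetup a A Hp Z) :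
    ∃ Q : P → P, (∀ x ∈ A, Q x ∈ Z) ∧ (∀ x ∈ A, ∀ y ∈ A, Q (x * y) = Q x * Q y * cm x y) ∧
      (∀ w ∈ Z, Q w = w ^ 2) ∧ (∀ s, ∀ x ∈ A, Q (a s x) = Q x) ∧
      (∀ p ∈ Hp, ∀ x ∈ A, Q (p * x * p⁻¹) = Q x) := by
  classical
  haveI hf : Fact (CSetup a A Hp Z) := ⟨h⟩
  obtain ⟨m, hm⟩ := exists_pow_inv (P := P) (n := Nat.card S) h.cop
  let zv : BaerT a A Hp Z → BaerT a A Hp Z := fun x => FB x ^ m
  have zv_val : ∀ x, (zv x).val = (FB x).val ^ m := fun x => pow_val_of_mem (FB_mem x) m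
  have zv_mem : ∀ x, (zv x).val ∈ Z := fun x => by
    rw [zv_val]
    exact Z.pow_mem (FB_mem x) m
  have zv_mul : ∀ x y, zv (x * y) = zv x * zv y := fun x y => by
    simp only [zv, FB_mul, mul_pow]
  have zv_of_mem : ∀ x : BaerT a A Hp Z, x.val ∈ Z → (zv x).val = x.val := fun x hx => by
    rw [zv_val, FB_of_mem hx, ← pow_mul, hm]
  have hval : ∀ x y : BaerT a A Hp Z, x.val ∈ Z → (x * y).val = x.val * y.val := fun x y hx => by
    rw [BaerT.mul_val, st_of_mem_left h hx]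
  let Q : P → P := fun p => if hp : p ∈ A then ((zv ⟨p, hp⟩).val) ^ 2 else 1
  have Qval : ∀ x (hx : x ∈ A), Q x = ((zv ⟨x, hx⟩).val) ^ 2 := fun x hx => by
    simp only [Q, dif_pos hx]
  have Qmem : ∀ x ∈ A, Q x ∈ Z := fun x hx => by
    rw [Qval x hx]
    exact Z.pow_mem (zv_mem _) 2
  refine ⟨Q, Qmem, ?_, ?_, ?_, ?_⟩
  · intro x hx y hy
    have hc : (cm x y) ^ rr P ∈ Z := Z.pow_mem (h.cm_mem hx hy) _
    let bx : BaerT a A Hp Z := ⟨x, hx⟩
    let by' : BaerT a A Hp Z := ⟨y, hy⟩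
    let bc : BaerT a A Hp Z := ⟨(cm x y) ^ rr P, h.ZA hc⟩
    have e1 : (⟨x * y, A.mul_mem hx hy⟩ : BaerT a A Hp Z) = bx * by' * bc := by
      apply BaerT.ext
      rw [BaerT.mul_val, BaerT.mul_val, st_of_mem_right h hc]
      show x * y = st x y * (cm x y) ^ rr P
      simp only [st]
      rw [← cm_inv x y, inv_pow, mul_assoc (x * y), inv_mul_cancel, mul_one]
    rw [Qval _ (A.mul_mem hx hy), Qval x hx, Qval y hy, e1, zv_mul, zv_mul]
    rw [hval _ _ (by
      rw [← zv_mul]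
      exact zv_mem _), hval _ _ (zv_mem _), zv_of_mem bc hc]
    set u := (zv bx).val
    set v := (zv by').val
    have hu : u ∈ Z := zv_mem _
    have hv : v ∈ Z := zv_mem _
    have huv : Commute u v := h.cen _ hu _
    have h1 : Commute (u * v) ((cm x y) ^ rr P) :=
      h.cen _ (Z.mul_mem hu hv) _
    rw [h1.mul_pow, huv.mul_pow, ← pow_mul, mul_comm (rr P) 2,
      h.pow_two_rr (cm x y) (rr P) (two_rr h.odd)]
  · intro w hw
    rw [Qval w (h.ZA hw), zv_of_mem ⟨w, h.ZA hw⟩ hw]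
  · intro s x hx
    rw [Qval _ (h.Ainv s x hx), Qval x hx]
    have : (⟨a s x, h.Ainv s x hx⟩ : BaerT a A Hp Z) = aB s ⟨x, hx⟩ := rfl
    simp only [zv]
    rw [this, FB_aB]
  · intro p hp x hx
    rw [Qval _ (h.Anorm p x hx), Qval x hx]
    have : (⟨p * x * p⁻¹, h.Anorm p x hx⟩ : BaerT a A Hp Z) = cB p ⟨x, hx⟩ := rfl
    simp only [zv]
    rw [this, FB_cB hp]

/-- A multiplicative function trivial on `Z` has norm one. -/
theorem prod_lin_eq_one [Finite P] [Fintype S] (h : CSetup a A Hp Z) (δ : A → ℂ)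
    (hδ : ∀ x y : A, δ (x * y) = δ x * δ y) (hδZ : ∀ z : A, (z : P) ∈ Z → δ z = 1) (x : A) :
    ∏ s : S, δ ⟨a s x, h.Ainv s x x.2⟩ = 1 := by
  classical
  haveI hf : Fact (CSetup a A Hp Z) := ⟨h⟩
  let D : BaerT a A Hp Z →* ℂ :=
    { toFun := fun y => δ ⟨y.val, y.mem⟩
      map_one' := hδZ ⟨1, A.one_mem⟩ Z.one_mem
      map_mul' := fun y w => by
        show δ ⟨st y.val w.val, _⟩ = δ ⟨y.val, y.mem⟩ * δ ⟨w.val, w.mem⟩
        have hc : (cm w.val y.val) ^ rr P ∈ Z := Z.pow_mem (h.cm_mem w.mem y.mem) _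
        have h1 : (⟨st y.val w.val, st_mem h y.mem w.mem⟩ : A) =
            ⟨y.val, y.mem⟩ * ⟨w.val, w.mem⟩ * ⟨(cm w.val y.val) ^ rr P, h.ZA hc⟩ := rfl
        rw [h1, hδ, hδ, hδZ ⟨(cm w.val y.val) ^ rr P, h.ZA hc⟩ hc, mul_one] }
  have h1 : D (FB (⟨x, x.2⟩ : BaerT a A Hp Z)) = 1 := hδZ _ (FB_mem _)
  rw [FB, map_prod] at h1
  exact h1

end Defs

end Cfsg.Agent.Lib.IsaBaer
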