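import Mathlib
import Cfsg.Agent.Lib.IsaBaer

/-!
# The involution `x h ↦ Q x x⁻¹ h`
-/

set_option autoImplicit false
set_option linter.unusedVariables false
set_option linter.unusedSectionVars false
set_option linter.style.haveILetI false

namespace Cfsg.Agent.Lib.IsaBaer

universe u v

variable {P : Type u} {S : Type v} [Group P] [Group S] {a : S →* MulAut P} {A Hp Z : Subgroup P}

/-- **The involution.** -/
theorem exists_t [Finite P] [Fintype S] (h : CSetup a A Hp Z) :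
    ∃ t : MulAut P, t * t = 1 ∧ (∀ p ∈ Hp, t p = p) ∧ (∀ x ∈ A, t x ∈ A) ∧
      (∀ s p, a s (t p) = t (a s p)) ∧ (∀ p, t p = p → p ∈ Hp) ∧ (∀ p, p * (t p)⁻¹ ∈ A) ∧
      (∀ z ∈ Z, t z = z) := by
  classical
  obtain ⟨Q, Qmem, Qmul, Qz, Qa, Qc⟩ := exists_Q h
  choose xx hxx hh hhh hpp using h.gen
  let σ : P → P := fun x => Q x * x⁻¹
  have σdef : ∀ x, σ x = Q x * x⁻¹ := fun x => rfl
  have σmem : ∀ x ∈ A, σ x ∈ A := fun x hx => A.mul_mem (h.ZA (Qmem x hx)) (A.inv_mem hx)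
  have σmul : ∀ x ∈ A, ∀ u ∈ A, σ (x * u) = σ x * σ u := by
    intro x hx u hu
    simp only [σdef]
    rw [Qmul x hx u hu]
    have h1 : cm x u * (x * u)⁻¹ = x⁻¹ * u⁻¹ := by
      rw [h.cen _ (h.cm_mem hx hu)]
      simp only [cm]
      group
    have h2 : x⁻¹ * (Q u * u⁻¹) = Q u * (x⁻¹ * u⁻¹) := by
      rw [← mul_assoc, ← h.cen _ (Qmem u hu) x⁻¹, mul_assoc]
    calc Q x * Q u * cm x u * (x * u)⁻¹ = Q x * (Q u * (cm x u * (x * u)⁻¹)) := by group
      _ = Q x * (Q u * (x⁻¹ * u⁻¹)) := by rw [h1]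
      _ = Q x * (x⁻¹ * (Q u * u⁻¹)) := by rw [h2]
      _ = Q x * x⁻¹ * (Q u * u⁻¹) := by group
  have σz : ∀ w ∈ Z, σ w = w := by
    intro w hw
    rw [σdef, Qz w hw]
    group
  have σconj : ∀ p ∈ Hp, ∀ x ∈ A, σ (p * x * p⁻¹) = p * σ x * p⁻¹ := by
    intro p hp x hx
    simp only [σdef]
    rw [Qc p hp x hx]
    have h1 := h.cen _ (Qmem x hx) p
    calc Q x * (p * x * p⁻¹)⁻¹ = (Q x * p) * (x⁻¹ * p⁻¹) := by group
      _ = (p * Q x) * (x⁻¹ * p⁻¹) := by rw [h1]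
      _ = p * (Q x * x⁻¹) * p⁻¹ := by group
  have Q1 : Q 1 = 1 := by
    rw [Qz 1 Z.one_mem]
    simp
  have Qinv : ∀ x ∈ A, Q x⁻¹ = (Q x)⁻¹ := by
    intro x hx
    have h1 := Qmul x hx x⁻¹ (A.inv_mem hx)
    have h2 : cm x x⁻¹ = 1 := by simp [cm]
    rw [mul_inv_cancel, Q1, h2, mul_one] at h1
    exact (eq_inv_of_mul_eq_one_right h1.symm)
  have σσ : ∀ x ∈ A, σ (σ x) = x := by
    intro x hx
    have h1 : Q (σ x) = Q x := by
      rw [σdef, Qmul _ (h.ZA (Qmem x hx)) _ (A.inv_mem hx), Qz _ (Qmem x hx),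
        Qinv x hx, h.cm_cen_left (Qmem x hx), mul_one]
      group
    rw [σdef (σ x), h1, σdef x, mul_inv_rev, inv_inv]
    rw [← mul_assoc, h.cen _ (Qmem x hx) x]
    group
  -- the map
  let t₀ : P → P := fun p => σ (xx p) * hh p
  have t₀_eq : ∀ x ∈ A, ∀ y ∈ Hp, t₀ (x * y) = σ x * y := by
    intro x hx y hy
    set p := x * y with hp
    have hx₁ := hxx p
    have hy₁ := hhh p
    have hp₁ := hpp p
    show σ (xx p) * hh p = σ x * y
    set x₁ := xx p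
    set y₁ := hh p
    have hw1 : x₁⁻¹ * x = y₁ * y⁻¹ := by
      have : x₁ * y₁ = x * y := hp₁.symm.trans hp
      calc x₁⁻¹ * x = x₁⁻¹ * (x * y) * y⁻¹ := by group
        _ = x₁⁻¹ * (x₁ * y₁) * y⁻¹ := by rw [this]
        _ = y₁ * y⁻¹ := by group
    have hwZ : x₁⁻¹ * x ∈ Z := by
      apply h.int _ (A.mul_mem (A.inv_mem hx₁) hx)
      rw [hw1]
      exact Hp.mul_mem hy₁ (Hp.inv_mem hy)
    set w := x₁⁻¹ * x with hw
    have hx2 : x = x₁ * w := by
      rw [hw]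
      group
    have hy2 : y₁ = w * y := by
      rw [hw1]
      group
    rw [hx2, σmul x₁ hx₁ w (h.ZA hwZ), σz w hwZ, hy2]
    group
  have t₀_mul : ∀ p p', t₀ (p * p') = t₀ p * t₀ p' := by
    intro p p'
    have e : p * p' = (xx p * (hh p * xx p' * (hh p)⁻¹)) * (hh p * hh p') := by
      conv_lhs => rw [hpp p, hpp p']
      group
    have hu := h.Anorm (hh p) (xx p') (hxx p')
    rw [e, t₀_eq _ (A.mul_mem (hxx p) hu) _ (Hp.mul_mem (hhh p) (hhh p')),
      σmul _ (hxx p) _ hu, σconj _ (hhh p) _ (hxx p')]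
    show _ = σ (xx p) * hh p * (σ (xx p') * hh p')
    group
  have t₀_t₀ : ∀ p, t₀ (t₀ p) = p := by
    intro p
    show t₀ (σ (xx p) * hh p) = p
    rw [t₀_eq _ (σmem _ (hxx p)) _ (hhh p), σσ _ (hxx p)]
    exact (hpp p).symm
  let t : MulAut P :=
    { toFun := t₀
      invFun := t₀
      left_inv := t₀_t₀
      right_inv := t₀_t₀
      map_mul' := t₀_mul }
  have tapp : ∀ p, t p = t₀ p := fun p => rfl
  have tA : ∀ x ∈ A, t x = σ x := by
    intro x hx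
    have := t₀_eq x hx 1 Hp.one_mem
    rw [mul_one, mul_one] at this
    exact this
  have tH : ∀ y ∈ Hp, t y = y := by
    intro y hy
    have := t₀_eq 1 A.one_mem y hy
    rw [one_mul] at this
    rw [tapp, this, σz 1 Z.one_mem, one_mul]
  refine ⟨t, ?_, tH, ?_, ?_, ?_, ?_, ?_⟩
  · ext p
    exact t₀_t₀ p
  · intro x hx
    rw [tA x hx]
    exact σmem x hx
  · intro s p
    have hp := hpp p
    have hs : a s p = a s (xx p) * hh p := by
      conv_lhs => rw [hp]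
      rw [map_mul, h.fix s _ (hhh p)]
    rw [hs, tapp (a s (xx p) * hh p), t₀_eq _ (h.Ainv s _ (hxx p)) _ (hhh p)]
    show a s (σ (xx p) * hh p) = _
    rw [map_mul, h.fix s _ (hhh p), σdef, σdef, map_mul, map_inv, Qa s _ (hxx p),
      h.fix s _ (h.ZH (Qmem _ (hxx p)))]
  · intro p hp
    have h1 : σ (xx p) * hh p = xx p * hh p := by
      have h2 : t p = σ (xx p) * hh p := rfl
      rw [← h2, hp]
      exact hpp p
    have h3 : σ (xx p) = xx p := mul_right_cancel h1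
    have h4 : Q (xx p) = xx p * xx p := by
      rw [σdef] at h3
      exact mul_inv_eq_iff_eq_mul.mp h3
    have h5 : (xx p) ^ 2 ∈ Z := by
      rw [pow_two, ← h4]
      exact Qmem _ (hxx p)
    have h6 : xx p ∈ Z := by
      have h7 := h.pow_two_rr (xx p) (rr P) (two_rr h.odd)
      rw [← h7, pow_mul]
      exact Z.pow_mem h5 _
    rw [hpp p]
    exact Hp.mul_mem (h.ZH h6) (hhh p)
  · intro p
    have h1 : t p = σ (xx p) * hh p := rfl
    rw [h1]
    have h2 : p * (σ (xx p) * hh p)⁻¹ = xx p * (σ (xx p))⁻¹ := by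
      calc p * (σ (xx p) * hh p)⁻¹ = (xx p * hh p) * (σ (xx p) * hh p)⁻¹ := by rw [← hpp p]
        _ = xx p * (σ (xx p))⁻¹ := by group
    rw [h2]
    exact A.mul_mem (hxx p) (A.inv_mem (σmem _ (hxx p)))
  · intro z hz
    exact tH z (h.ZH hz)

end Cfsg.Agent.Lib.IsaBaer
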