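import Mathlib
import Cfsg.Agent.Lib.CharTwist
import Cfsg.Agent.Lib.CharTable
import Cfsg.Agent.Lib.Clifford

/-!
# The parity argument

`t` an involutory automorphism of an odd order group `P` trivial modulo the `t`-stable normal
subgroup `A`; an irreducible character of `P` whose restriction to `A` is `t`-invariant is
`t`-invariant.
-/

set_option autoImplicit false
set_option linter.unusedVariables false
set_option linter.unusedSectionVars false
set_option linter.style.haveILetI false

namespace Cfsg.Agent.Lib.IsaBaer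

open Cfsg Cfsg.Agent.Lib.CharBasic Cfsg.Agent.Lib.CharInd Cfsg.Agent.Lib.CharInduction
open Cfsg.Agent.Lib.CharTwist Cfsg.Agent.Lib.CharClifford Cfsg.Agent.Lib.CharKernel
open scoped ComplexConjugate

universe u v

/-- An irreducible constituent of a restriction. -/
theorem exists_constituent {G : Type u} [Group G] [Fintype G] (N : Subgroup G) [Fintype N]
    {φ : G → ℂ} (hφ : IsIrrCharacter G φ) :
    ∃ ψ : IrrCharacter N, classInner (fun n : N => φ n) (ψ : N → ℂ) ≠ 0 := by
  classical
  have hc := IsIrrCharacter.isCharacter hφ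
  have hres := isCharacter_restrict N hc
  obtain ⟨m, hm⟩ := exists_nat_decomp hres
  by_contra hcon
  push Not at hcon
  have h0 : ∀ i, m i = 0 := by
    intro i
    have h1 := classInner_nat_decomp m (i : N → ℂ) i.2
    rw [← hm, hcon i] at h1
    exact_mod_cast h1.symm
  have h1 := congrFun hm 1
  simp only [h0, zero_smul, Finset.sum_const_zero, Pi.zero_apply, OneMemClass.coe_one] at h1
  exact Cfsg.Agent.Lib.Clifford.irr_degree_ne_zero hφ h1

/-- `1 + 2 a ≠ 2 b` in valuations. -/
theorem parity_contra {e₀ k₀ e k : ℕ} (he₀ : e₀ ≠ 0) (hk₀ : Odd k₀) (he : e ≠ 0) (hk : Odd k)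
    (h : 2 * (e₀ ^ 2 * k₀) = e ^ 2 * k) : False := by
  haveI : Fact (Nat.Prime 2) := ⟨Nat.prime_two⟩
  have hk₀0 : k₀ ≠ 0 := by
    rintro rfl
    simp at hk₀
  have hk0 : k ≠ 0 := by
    rintro rfl
    simp at hk
  have h1 := congrArg (padicValNat 2) h
  rw [padicValNat.mul (by norm_num) (mul_ne_zero (pow_ne_zero _ he₀) hk₀0),
    padicValNat.mul (pow_ne_zero _ he₀) hk₀0, padicValNat.mul (pow_ne_zero _ he) hk0,
    padicValNat.pow e₀ 2, padicValNat.pow e 2,
    padicValNat.eq_zero_of_not_dvd (n := k₀) hk₀.not_two_dvd_nat,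
    padicValNat.eq_zero_of_not_dvd (n := k) hk.not_two_dvd_nat, padicValNat_self] at h1
  omega

section Parity

variable {P : Type u} [Group P] [Fintype P]

/-- The action of `ℤˣ` through an involution. -/
def unitsAct (t : MulAut P) (ht : t * t = 1) : ℤˣ →* MulAut P where
  toFun u := if u = 1 then 1 else t
  map_one' := by simp
  map_mul' u v := by
    rcases Int.units_eq_one_or u with rfl | rfl <;> rcases Int.units_eq_one_or v with rfl | rfl
    · simp
    · simp
    · simp
    · have h1 : ((-1 : ℤˣ) * (-1 : ℤˣ)) = 1 := by decide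
      have h2 : (-1 : ℤˣ) ≠ 1 := by decide
      rw [h1, if_pos rfl, if_neg h2, ht]

theorem unitsAct_one (t : MulAut P) (ht : t * t = 1) : unitsAct t ht 1 = 1 := map_one _

theorem unitsAct_neg (t : MulAut P) (ht : t * t = 1) : unitsAct t ht (-1) = t := by
  have h2 : (-1 : ℤˣ) ≠ 1 := by decide
  show (if (-1 : ℤˣ) = 1 then 1 else t) = t
  rw [if_neg h2]

/-- The semidirect product. -/
abbrev YY (t : MulAut P) (ht : t * t = 1) : Type u := P ⋊[unitsAct t ht] ℤˣ

noncomputable instance instFintypeSDu (t : MulAut P) (ht : t * t = 1) : Fintype (YY t ht) :=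
  Fintype.ofEquiv _ SemidirectProduct.equivProd.symm

theorem sum_units (f : ℤˣ → ℂ) : ∑ u, f u = f 1 + f (-1) := by
  have h1 : (Finset.univ : Finset ℤˣ) = {1, -1} := by decide
  have h2 : (1 : ℤˣ) ≠ -1 := by decide
  rw [h1, Finset.sum_pair h2]

/-- **The parity theorem.** -/
theorem parity_inv (hodd : Odd (Nat.card P)) (t : MulAut P) (ht : t * t = 1) (A : Subgroup P)
    [hA : A.Normal] (hAt : ∀ x ∈ A, t x ∈ A) (hmod : ∀ p, p * (t p)⁻¹ ∈ A)
    {χ : P → ℂ} (hχ : IsIrrCharacter P χ) (hχA : ∀ x ∈ A, χ (t x) = χ x) (p : P) :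
    χ (t p) = χ p := by
  classical
  by_contra hne
  have hne' : χ ≠ χ ∘ t := fun h => hne (congrFun h p).symm
  have hφ1 : unitsAct t ht 1 = 1 := unitsAct_one t ht
  have hφn : unitsAct t ht (-1) = t := unitsAct_neg t ht
  have hχc := IsIrrCharacter.isCharacter hχ
  have hχcl := isClassFunction_of_isCharacter hχc
  let r : YY t ht →* ℤˣ := SemidirectProduct.rightHom
  let H₀ : Subgroup (YY t ht) := r.ker
  haveI hH₀ : H₀.Normal := MonoidHom.normal_ker r
  haveI : Fintype H₀ := Fintype.ofFinite _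
  have hH₀mem : ∀ y : YY t ht, y ∈ H₀ ↔ y.right = 1 := fun y => Iff.rfl
  let Lft : H₀ →* P :=
    { toFun := fun n => (n : YY t ht).left
      map_one' := rfl
      map_mul' := fun x y => by
        show ((x : YY t ht) * (y : YY t ht)).left = _
        rw [SemidirectProduct.mul_left, (hH₀mem _).mp x.2, map_one]
        rfl }
  have Lfts : Function.Surjective Lft := fun q =>
    ⟨⟨SemidirectProduct.inl q, (hH₀mem _).mpr rfl⟩, rfl⟩
  have Lfti : Function.Injective Lft := by
    intro x y hxy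
    apply Subtype.ext
    apply SemidirectProduct.ext
    · exact hxy
    · rw [(hH₀mem _).mp x.2, (hH₀mem _).mp y.2]
  let e₀ : H₀ ≃* P := MulEquiv.ofBijective Lft ⟨Lfti, Lfts⟩
  have cardH₀ : Nat.card H₀ = Nat.card P := Nat.card_congr e₀.toEquiv
  let χ₀ : H₀ → ℂ := χ ∘ Lft
  have hχ₀ : IsIrrCharacter H₀ χ₀ := isIrrCharacter_comp_of_surjective Lft Lfts hχ
  have hχ₀' : IsIrrCharacter H₀ ((χ ∘ t) ∘ Lft) :=
    isIrrCharacter_comp_of_surjective Lft Lfts
      (isIrrCharacter_comp_of_surjective t.toMonoidHom t.surjective hχ)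
  let Ξ : YY t ht → ℂ := indFun H₀ χ₀
  have hΞc : IsCharacter (YY t ht) Ξ := indFun_isCharacter H₀ (IsIrrCharacter.isCharacter hχ₀)
  -- conjugation formula
  have hconj : ∀ (x n : YY t ht), n.right = 1 →
      (x * n * x⁻¹).left = x.left * unitsAct t ht x.right n.left * x.left⁻¹ := by
    intro x n hn
    rw [SemidirectProduct.mul_left, SemidirectProduct.mul_left, SemidirectProduct.mul_right,
      SemidirectProduct.inv_left, hn, mul_one]
    congr 1
    rw [← MulAut.mul_apply, ← map_mul, mul_inv_cancel, map_one]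
    rfl
  have hval : ∀ n : H₀, Ξ n = χ (n : YY t ht).left + χ (t (n : YY t ht).left) := by
    intro n
    show indFun H₀ χ₀ n = _
    rw [indFun_of_mem_normal H₀ hH₀ χ₀ n]
    have h1 : ∀ x : YY t ht, conjBy H₀ hH₀ x χ₀ n =
        χ (unitsAct t ht x.right (n : YY t ht).left) := by
      intro x
      rw [conjBy_apply]
      show χ ((x * (n : YY t ht) * x⁻¹).left) = _
      rw [hconj x n ((hH₀mem _).mp n.2)]
      exact hχcl _ _
    simp only [h1]
    have h2 : ∑ x : YY t ht, χ (unitsAct t ht x.right (n : YY t ht).left) =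
        ∑ q : P × ℤˣ, χ (unitsAct t ht q.2 (n : YY t ht).left) :=
      Fintype.sum_equiv SemidirectProduct.equivProd _ _ (fun x => rfl)
    rw [h2, Fintype.sum_prod_type]
    simp only [sum_units, hφ1, hφn, MulAut.one_apply, Finset.sum_const, Finset.card_univ,
      nsmul_eq_mul]
    rw [cardH₀, Nat.card_eq_fintype_card]
    have hne0 : (Fintype.card P : ℂ) ≠ 0 := by exact_mod_cast Fintype.card_pos.ne'
    field_simp
  have hoff : ∀ y : YY t ht, y.right ≠ 1 → Ξ y = 0 := fun y hy =>
    indFun_of_not_mem_normal H₀ hH₀ χ₀ (fun h => hy ((hH₀mem _).mp h))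
  have hne0 : χ₀ ≠ (χ ∘ t) ∘ Lft := by
    intro h
    apply hne'
    funext q
    obtain ⟨n, rfl⟩ := Lfts q
    exact congrFun h n
  have hnorm : classInner Ξ Ξ = 1 := by
    have h1 : classInner Ξ Ξ = classInner χ₀ (fun n : H₀ => Ξ n) :=
      frobenius H₀ χ₀ (isClassFunction_of_isCharacter hΞc)
    have h2 : (fun n : H₀ => Ξ n) = χ₀ + (χ ∘ t) ∘ Lft := funext hval
    rw [h1, h2, classInner_add_right, classInner_irr_self hχ₀, classInner_irr_ne hχ₀ hχ₀' hne0,
      add_zero]
  have hΞ : IsIrrCharacter (YY t ht) Ξ := isIrrCharacter_of_norm_one hΞc hnorm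
  -- the subgroup `B`
  have hφA : ∀ u : ℤˣ, ∀ x ∈ A, unitsAct t ht u x ∈ A := by
    intro u x hx
    rcases Int.units_eq_one_or u with rfl | rfl
    · rw [hφ1]
      exact hx
    · rw [hφn]
      exact hAt x hx
  let B : Subgroup (YY t ht) :=
    { carrier := {y | y.left ∈ A}
      one_mem' := A.one_mem
      mul_mem' := fun {x y} hx hy => by
        show (x * y).left ∈ A
        rw [SemidirectProduct.mul_left]
        exact A.mul_mem hx (hφA _ _ hy)
      inv_mem' := fun {x} hx => by
        show x⁻¹.left ∈ A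
        rw [SemidirectProduct.inv_left]
        exact hφA _ _ (A.inv_mem hx) }
  have hBmem : ∀ y : YY t ht, y ∈ B ↔ y.left ∈ A := fun y => Iff.rfl
  have hBn : B.Normal := by
    constructor
    intro n hn g
    rw [hBmem]
    rw [SemidirectProduct.mul_left, SemidirectProduct.mul_left, SemidirectProduct.mul_right,
      SemidirectProduct.inv_left]
    have h1 : (unitsAct t ht (g.right * n.right)) ((unitsAct t ht g.right⁻¹) g.left⁻¹) =
        unitsAct t ht n.right g.left⁻¹ := by
      rw [← MulAut.mul_apply, ← map_mul, mul_comm g.right, mul_assoc, mul_inv_cancel, mul_one]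
    rw [h1]
    set q := g.left
    set w := unitsAct t ht g.right n.left
    have hw : w ∈ A := hφA _ _ hn
    have h2 : q * (unitsAct t ht n.right q)⁻¹ ∈ A := by
      rcases Int.units_eq_one_or n.right with h | h
      · rw [h, hφ1, MulAut.one_apply, mul_inv_cancel]
        exact A.one_mem
      · rw [h, hφn]
        exact hmod q
    have h3 : q * w * (unitsAct t ht n.right) q⁻¹ =
        (q * w * q⁻¹) * (q * (unitsAct t ht n.right q)⁻¹) := by
      rw [map_inv]
      group
    rw [h3]
    exact A.mul_mem (hA.conj_mem w hw q) h2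
  haveI : Fintype B := Fintype.ofFinite _
  haveI : Fintype A := Fintype.ofFinite _
  let eB : B ≃ A × ℤˣ :=
    { toFun := fun b => (⟨(b : YY t ht).left, b.2⟩, (b : YY t ht).right)
      invFun := fun q => ⟨⟨q.1.1, q.2⟩, q.1.2⟩
      left_inv := fun b => rfl
      right_inv := fun q => rfl }
  have cardB : Nat.card B = Nat.card A * 2 := by
    rw [Nat.card_congr eB, Nat.card_prod]
    simp
  have hnormB : classInner (fun b : B => Ξ b) (fun b : B => Ξ b) =
      2 * classInner (fun x : A => χ x) (fun x : A => χ x) := by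
    unfold classInner
    have h1 : ∑ b : B, Ξ b * conj (Ξ b) =
        ∑ q : A × ℤˣ, Ξ ⟨q.1.1, q.2⟩ * conj (Ξ ⟨q.1.1, q.2⟩) :=
      Fintype.sum_equiv eB _ _ (fun b => rfl)
    rw [h1, Fintype.sum_prod_type]
    have h2 : ∀ x : A, ∑ u : ℤˣ, Ξ ⟨x.1, u⟩ * conj (Ξ ⟨x.1, u⟩) = 4 * (χ x * conj (χ x)) := by
      intro x
      rw [sum_units]
      have h3 : Ξ ⟨x.1, -1⟩ = 0 := hoff _ (show (-1 : ℤˣ) ≠ 1 by decide)
      have h4 := hval ⟨⟨x.1, 1⟩, (hH₀mem _).mpr rfl⟩
      have h5 : Ξ ⟨x.1, 1⟩ = χ x.1 + χ (t x.1) := h4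
      rw [h3, h5, hχA x.1 x.2]
      simp only [map_add, map_zero, mul_zero, add_zero]
      ring
    simp only [h2]
    rw [cardB, ← Finset.mul_sum]
    have hne0 : (Nat.card A : ℂ) ≠ 0 := by exact_mod_cast Nat.card_pos.ne'
    push_cast
    field_simp
    ring
  -- Clifford numerics
  obtain ⟨ξ, hξ⟩ := exists_constituent B hΞ
  obtain ⟨e, he0, -, -, he⟩ := clifford_numeric B hBn hΞ ξ.2 hξ
  have hk := card_orbit_dvd_index B hBn (IsIrrCharacter.isCharacter ξ.2)
  obtain ⟨β, hβ⟩ := exists_constituent A hχ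
  obtain ⟨e₁, he₁0, -, -, he₁⟩ := clifford_numeric A hA hχ β.2 hβ
  have hk₁ := card_orbit_dvd_index A hA (IsIrrCharacter.isCharacter β.2)
  set k := (Finset.univ.image (fun g : YY t ht => conjBy B hBn g (ξ : B → ℂ))).card
  set k₁ := (Finset.univ.image (fun g : P => conjBy A hA g (β : A → ℂ))).card
  rw [he, he₁] at hnormB
  have hmain : 2 * (e₁ ^ 2 * k₁) = e ^ 2 * k := by exact_mod_cast hnormB.symm
  have hAodd : Odd A.index := Odd.of_dvd_nat hodd (Subgroup.index_dvd_card A)
  have hBodd : Odd B.index := by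
    have h1 := Subgroup.card_mul_index B
    have h2 : Nat.card (YY t ht) = Nat.card P * 2 := by
      rw [Nat.card_congr SemidirectProduct.equivProd, Nat.card_prod]
      simp
    rw [cardB, h2] at h1
    have h3 : Nat.card A * B.index = Nat.card P := by
      nlinarith
    exact Odd.of_dvd_nat hodd ⟨Nat.card A, by rw [← h3, mul_comm]⟩
  exact parity_contra he₁0 (Odd.of_dvd_nat hAodd hk₁) he0 (Odd.of_dvd_nat hBodd hk) hmain

end Parity

end Cfsg.Agent.Lib.IsaBaer
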