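import Mathlib
import Cfsg.Agent.Lib.IsaInvol
import Cfsg.Agent.Lib.IsaParity
import Cfsg.Agent.Lib.GlaubCorr
import Cfsg.Agent.Lib.GlaubFix
import Cfsg.Agent.Lib.GlaubSyl1

/-!
# The central theorem

Under `CSetup`, the irreducible characters of `P` invariant under `S` are in bijection with the
irreducible characters of `Hp`, through the unique constituent with odd multiplicity.
-/

set_option autoImplicit false
set_option linter.unusedVariables false
set_option linter.unusedSectionVars false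
set_option linter.style.haveILetI false

namespace Cfsg.Agent.Lib.IsaBaer

open Cfsg Cfsg.Agent.Lib.CharBasic Cfsg.Agent.Lib.CharInd Cfsg.Agent.Lib.CharInduction
open Cfsg.Agent.Lib.CharTwist Cfsg.Agent.Lib.CharClifford Cfsg.Agent.Lib.CharKernel
open Cfsg.Agent.Lib.GlaubCorr Cfsg.Agent.Lib.GlaubFix Cfsg.Agent.Lib.CharCentral
open Cfsg.Agent.Lib.CharTable
open scoped ComplexConjugate

universe u v

/-- Commuting automorphisms of coprime orders with the same effect on `β` fix `β`. -/
theorem inv_of_commuting {B : Type*} [Group B] (u w : MulAut B) (β : B → ℂ) (huw : u * w = w * u)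
    (hβ : ∀ x, β (u x) = β (w x)) {n m : ℕ} (hu : u ^ n = 1) (hw : w ^ m = 1)
    (hc : n.Coprime m) (x : B) : β (u x) = β x := by
  have hcomm : Commute u w := huw
  have h1 : ∀ k : ℕ, ∀ x, β ((u ^ k) x) = β ((w ^ k) x) := by
    intro k
    induction k with
    | zero => intro x; rfl
    | succ k ih =>
        intro x
        have h2 : (u ^ (k + 1)) x = (u ^ k) (u x) := by
          rw [pow_succ]
          rfl
        have h3 : (w ^ k) (u x) = u ((w ^ k) x) := by
          have := (hcomm.pow_right k).eq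
          have h4 := congrArg (fun f : MulAut B => f x) this
          exact h4.symm
        have h5 : (w ^ (k + 1)) x = w ((w ^ k) x) := by
          rw [pow_succ']
          rfl
        rw [h2, ih, h3, hβ, h5]
  have h2 : ∀ x, β ((w ^ n) x) = β x := by
    intro x
    rw [← h1, hu]
    rfl
  have h3 : ∀ j : ℕ, ∀ x, β (((w ^ n) ^ j) x) = β x := by
    intro j
    induction j with
    | zero => intro x; rfl
    | succ j ih =>
        intro x
        have h4 : ((w ^ n) ^ (j + 1)) x = ((w ^ n) ^ j) ((w ^ n) x) := by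
          rw [pow_succ]
          rfl
        rw [h4, ih, h2]
  have hc2 : n.Coprime (orderOf w) :=
    Nat.Coprime.coprime_dvd_right (orderOf_dvd_of_pow_eq_one hw) hc
  obtain ⟨j, hj⟩ := exists_pow_eq_self_of_coprime hc2
  rw [hβ]
  have h4 := h3 j x
  rwa [hj] at h4

/-- Two irreducible characters agreeing on a central subgroup with abelian quotient differ by a
linear character. -/
theorem exists_twist {B : Type u} [Group B] [Fintype B] (K : Subgroup B) [hK : K.Normal]
    (hKc : ∀ k ∈ K, ∀ b, k * b = b * k) (hcomm : ∀ x y : B, x * y * x⁻¹ * y⁻¹ ∈ K)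
    {β β' : B → ℂ} (hβ : IsIrrCharacter B β) (hβ' : IsIrrCharacter B β')
    (hKe : ∀ k ∈ K, β k = β' k) :
    ∃ δ : B →* ℂˣ, (∀ k ∈ K, δ k = 1) ∧ ∀ x, β x = β' x * ((δ x : ℂˣ) : ℂ) := by
  classical
  have hβc := IsIrrCharacter.isCharacter hβ
  have hβc' := IsIrrCharacter.isCharacter hβ'
  let W : B → ℂ := β * fun g => conj (β' g)
  have hW : IsCharacter B W := isCharacter_mul hβc (isCharacter_conj hβc')
  have hWK : ∀ k ∈ K, W k = W 1 := by
    intro k hk
    show β k * conj (β' k) = β 1 * conj (β' 1)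
    rw [← hKe k hk, ← hKe 1 K.one_mem, central_norm hβ (hKc k hk),
      central_norm hβ (hKc 1 K.one_mem)]
  obtain ⟨W', hW', hW'e⟩ := exists_quotient_char K hW hWK
  haveI : Fintype (B ⧸ K) := Fintype.ofFinite _
  obtain ⟨m, hm⟩ := exists_nat_decomp hW'
  have hW1 : W 1 ≠ 0 := by
    show β 1 * conj (β' 1) ≠ 0
    exact mul_ne_zero (Cfsg.Agent.Lib.Clifford.irr_degree_ne_zero hβ)
      ((map_ne_zero _).mpr (Cfsg.Agent.Lib.Clifford.irr_degree_ne_zero hβ'))
  obtain ⟨i, hi⟩ : ∃ i, m i ≠ 0 := by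
    by_contra hall
    push Not at hall
    apply hW1
    have h1 := hW'e 1
    rw [hm] at h1
    rw [← h1]
    simp [Finset.sum_apply, hall]
  -- irreducibles of the quotient are linear
  have hqc : ∀ x y : B ⧸ K, x * y = y * x := by
    intro x y
    induction x using QuotientGroup.induction_on with | _ x => ?_
    induction y using QuotientGroup.induction_on with | _ y => ?_
    rw [← QuotientGroup.mk_mul, ← QuotientGroup.mk_mul, QuotientGroup.eq]
    have h0 := hcomm y⁻¹ x⁻¹
    rw [inv_inv, inv_inv] at h0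
    convert h0 using 1
    group
  have hic := IsIrrCharacter.isCharacter i.2
  have hi1 : (i : B ⧸ K → ℂ) 1 = 1 := by
    have h1 := classInner_irr_self i.2
    unfold classInner at h1
    have h2 : ∀ z : B ⧸ K, (i : B ⧸ K → ℂ) z * conj ((i : B ⧸ K → ℂ) z) =
        (i : B ⧸ K → ℂ) 1 * (i : B ⧸ K → ℂ) 1 := fun z => central_norm i.2 (hqc z)
    simp only [h2, Finset.sum_const, Finset.card_univ, nsmul_eq_mul] at h1
    rw [← Nat.card_eq_fintype_card] at h1
    have hne : (Nat.card (B ⧸ K) : ℂ) ≠ 0 := by exact_mod_cast Nat.card_pos.ne'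
    rw [inv_mul_cancel_left₀ hne] at h1
    rw [one_eq_charDegree hic] at h1 ⊢
    have h3 : charDegree (i : B ⧸ K → ℂ) * charDegree (i : B ⧸ K → ℂ) = 1 := by exact_mod_cast h1
    have h4 : charDegree (i : B ⧸ K → ℂ) = 1 := Nat.eq_one_of_mul_eq_one_right h3
    rw [h4]
    simp
  obtain ⟨f, hf⟩ := exists_hom_of_degree_one hic hi1
  let π : B →* B ⧸ K := QuotientGroup.mk' K
  have hπ : Function.Surjective π := QuotientGroup.mk'_surjective K
  refine ⟨f.comp π, ?_, ?_⟩
  · intro k hk
    show f (k : B ⧸ K) = 1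
    rw [(QuotientGroup.eq_one_iff k).mpr hk, map_one]
  -- the product with `δ` is irreducible
  let δf : B → ℂ := fun x => (((f.comp π) x : ℂˣ) : ℂ)
  have hδc : ∀ x, δf x * conj (δf x) = 1 := fun x => hom_mul_conj (f.comp π) x
  have hδchar : IsCharacter B δf := by
    have h1 : δf = (i : B ⧸ K → ℂ) ∘ π := by
      funext x
      exact (hf (π x)).symm
    rw [h1]
    exact isCharacter_comp π hic
  have hprod : IsIrrCharacter B (β' * δf) := by
    apply isIrrCharacter_of_norm_one (isCharacter_mul hβc' hδchar)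
    have h1 := classInner_irr_self hβ'
    unfold classInner at h1 ⊢
    rw [← h1]
    congr 1
    refine Finset.sum_congr rfl fun x _ => ?_
    simp only [Pi.mul_apply, map_mul]
    linear_combination (β' x * conj (β' x)) * hδc x
  by_contra hcon
  have hne : β ≠ β' * δf := by
    intro h
    exact hcon (fun x => congrFun h x)
  have h0 := classInner_irr_ne hβ hprod hne
  have h1 : classInner W δf = classInner β (β' * δf) := by
    unfold classInner
    congr 1
    refine Finset.sum_congr rfl fun x _ => ?_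
    simp only [W, Pi.mul_apply, map_mul]
    ring
  have h2 : classInner W δf = m i := by
    have h3 : W = W' ∘ π := by
      funext x
      exact (hW'e x).symm
    have h4 : δf = (i : B ⧸ K → ℂ) ∘ π := by
      funext x
      exact (hf (π x)).symm
    rw [h3, h4]
    have h5 := Cfsg.Agent.Lib.GlaubSyl1.classInner_infl π hπ W' (i : B ⧸ K → ℂ)
    have h6 : classInner (W' ∘ π) ((i : B ⧸ K → ℂ) ∘ π) = classInner W' (i : B ⧸ K → ℂ) := by
      convert h5 <;> rfl
    rw [h6, hm]
    exact classInner_nat_decomp m _ i.2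
  rw [h1, h0] at h2
  exact hi (by exact_mod_cast h2.symm)

section Central

variable {P : Type u} {S : Type v} [Group P] [Group S] [Fintype P] [Fintype S]
  {a : S →* MulAut P} {A Hp Z : Subgroup P}

/-- The restricted action. -/
def resAut (a : S →* MulAut P) (A : Subgroup P) (hA : ∀ s, ∀ x ∈ A, a s x ∈ A) :
    S →* MulAut A where
  toFun s :=
    { toFun := fun x => ⟨a s x, hA s x x.2⟩
      invFun := fun x => ⟨a s⁻¹ x, hA s⁻¹ x x.2⟩
      left_inv := fun x => Subtype.ext (by
        show a s⁻¹ (a s x) = x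
        rw [← MulAut.mul_apply, ← map_mul, inv_mul_cancel, map_one]
        rfl)
      right_inv := fun x => Subtype.ext (by
        show a s (a s⁻¹ x) = x
        rw [← MulAut.mul_apply, ← map_mul, mul_inv_cancel, map_one]
        rfl)
      map_mul' := fun x y => Subtype.ext (map_mul (a s) _ _) }
  map_one' := by
    ext x
    show a 1 (x : P) = x
    rw [map_one]
    rfl
  map_mul' s t := by
    ext x
    show a (s * t) (x : P) = a s (a t x)
    rw [map_mul]
    rfl

/-- Two `S`-invariant irreducible characters of `A` agreeing on `Z` coincide. -/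
theorem uniq_on_A (h : CSetup a A Hp Z) [Fintype A] {β β' : A → ℂ} (hβ : IsIrrCharacter A β)
    (hβ' : IsIrrCharacter A β')
    (hS : ∀ s (x : A), β ⟨a s x, h.Ainv s x x.2⟩ = β x)
    (hS' : ∀ s (x : A), β' ⟨a s x, h.Ainv s x x.2⟩ = β' x)
    (hZe : ∀ z : A, (z : P) ∈ Z → β z = β' z) : β = β' := by
  classical
  let K : Subgroup A := Z.subgroupOf A
  haveI hKn : K.Normal := by
    constructor
    intro n hn g
    rw [Subgroup.mem_subgroupOf] at hn ⊢
    show (g : P) * n * (g : P)⁻¹ ∈ Z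
    rw [← h.cen _ hn]
    simpa using hn
  obtain ⟨δ, hδK, hδ⟩ := exists_twist K
    (fun k hk b => Subtype.ext (h.cen _ (Subgroup.mem_subgroupOf.mp hk) _))
    (fun x y => Subgroup.mem_subgroupOf.mpr (h.comm _ x.2 _ y.2)) hβ hβ'
    (fun k hk => hZe k (Subgroup.mem_subgroupOf.mp hk))
  funext x
  by_cases hx : β' x = 0
  · rw [hδ x, hx, zero_mul]
  have hfix : ∀ s : S, ((δ ⟨a s x, h.Ainv s x x.2⟩ : ℂˣ) : ℂ) = ((δ x : ℂˣ) : ℂ) := by
    intro s
    have h1 := hδ ⟨a s x, h.Ainv s x x.2⟩
    rw [hS, hS', hδ x] at h1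
    exact (mul_left_cancel₀ hx h1).symm
  have hprod := prod_lin_eq_one h (fun y : A => ((δ y : ℂˣ) : ℂ))
    (fun y w => by simp) (fun z hz => by
      show ((δ z : ℂˣ) : ℂ) = 1
      rw [hδK z (Subgroup.mem_subgroupOf.mpr hz)]
      rfl) x
  simp only [hfix, Finset.prod_const, Finset.card_univ] at hprod
  have h1 : (δ x) ^ Fintype.card S = 1 := by
    apply Units.ext
    simpa using hprod
  have h2 : (δ x) ^ Nat.card A = 1 := by
    rw [← map_pow, pow_card_eq_one', map_one]
  have hcop : (Nat.card A).Coprime (Fintype.card S) := by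
    rw [← Nat.card_eq_fintype_card]
    exact Nat.Coprime.coprime_dvd_left (Subgroup.card_subgroup_dvd_card A) h.cop
  have h3 : δ x = 1 := by
    have h4 := orderOf_dvd_of_pow_eq_one h1
    have h5 := orderOf_dvd_of_pow_eq_one h2
    have h6 : orderOf (δ x) ∣ 1 := by
      rw [← hcop.gcd_eq_one]
      exact Nat.dvd_gcd h5 h4
    exact orderOf_eq_one_iff.mp (Nat.dvd_one.mp h6)
  rw [hδ x, h3]
  simp

/-- An `S`-invariant irreducible character of `P` has `t`-invariant restriction to `A`. -/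
theorem inv_on_A (h : CSetup a A Hp Z) (t : MulAut P) (ht : t * t = 1)
    (htA : ∀ x ∈ A, t x ∈ A) (hta : ∀ s p, a s (t p) = t (a s p)) (htZ : ∀ z ∈ Z, t z = z)
    {χ : P → ℂ} (hχ : IsIrrCharacter P χ) (hinv : ∀ s g, χ (a s g) = χ g) (x : P) (hx : x ∈ A) :
    χ (t x) = χ x := by
  classical
  haveI hA : A.Normal := ⟨fun n hn g => h.Anorm g n hn⟩
  haveI : Fintype A := Fintype.ofFinite _
  have hχc := IsIrrCharacter.isCharacter hχ
  let f : A → ℂ := fun y => χ y
  have hfcl : IsClassFunction A f := isClassFunction_of_isCharacter (isCharacter_restrict A hχc)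
  let u : S →* MulAut A := resAut a A h.Ainv
  have hu : ∀ s (y : A), ((u s y : A) : P) = a s y := fun s y => rfl
  have hfu : ∀ s y, f (u s y) = f y := fun s y => hinv s y
  let tA : MulAut A :=
    { toFun := fun y => ⟨t y, htA y y.2⟩
      invFun := fun y => ⟨t y, htA y y.2⟩
      left_inv := fun y => Subtype.ext (by
        have := congrArg (fun g : MulAut P => g (y : P)) ht
        exact this)
      right_inv := fun y => Subtype.ext (by
        have := congrArg (fun g : MulAut P => g (y : P)) ht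
        exact this)
      map_mul' := fun y w => Subtype.ext (map_mul t _ _) }
  have htAv : ∀ y : A, ((tA y : A) : P) = t y := fun y => rfl
  -- each constituent is `S`-invariant
  have key1 : ∀ β : IrrCharacter A, classInner f (β : A → ℂ) ≠ 0 →
      ∀ s y, (β : A → ℂ) (u s y) = (β : A → ℂ) y := by
    intro β hβ s y
    have hμ : IsIrrCharacter A ((β : A → ℂ) ∘ u s) :=
      isIrrCharacter_comp_of_surjective (u s).toMonoidHom (u s).surjective β.2
    have hfμ : classInner f ((β : A → ℂ) ∘ u s) ≠ 0 := by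
      have h1 := Cfsg.Agent.Lib.Clifford.classInner_comp_mulEquiv (u s) f (β : A → ℂ)
      have h2 : f ∘ u s = f := funext (hfu s)
      rw [h2] at h1
      rw [h1]
      exact hβ
    obtain ⟨g, hg⟩ := exists_conj_of_constituents A hA hχ β.2 hμ hβ hfμ
    obtain ⟨x₀, hx₀, h₀, hh₀, hgeq⟩ := h.gen g
    have hβcl := isClassFunction_of_isCharacter (IsIrrCharacter.isCharacter β.2)
    let w : MulAut A := MulAut.conjNormal h₀
    have hw : ∀ y : A, ((w y : A) : P) = h₀ * y * h₀⁻¹ := fun y => MulAut.conjNormal_apply h₀ y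
    have hβ1 : ∀ y, (β : A → ℂ) (u s y) = (β : A → ℂ) (w y) := by
      intro y
      have h1 := congrFun hg y
      have h2 : ((β : A → ℂ) ∘ u s) y = (β : A → ℂ) (u s y) := rfl
      rw [h2] at h1
      rw [h1, conjBy_apply]
      have h3 := hβcl (w y) ⟨x₀, hx₀⟩
      rw [← h3]
      have h4 : (⟨g * y * g⁻¹, hA.conj_mem y y.2 g⟩ : A) = ⟨x₀, hx₀⟩ * w y * ⟨x₀, hx₀⟩⁻¹ := by
        apply Subtype.ext
        show g * y * g⁻¹ = x₀ * (h₀ * y * h₀⁻¹) * x₀⁻¹
        rw [hgeq]
        group
      rw [h4]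
    have hcomm : u s * w = w * u s := by
      ext y
      show a s (h₀ * y * h₀⁻¹) = h₀ * a s y * h₀⁻¹
      rw [map_mul, map_mul, map_inv, h.fix s h₀ hh₀]
    have hun : u s ^ Nat.card S = 1 := by
      rw [← map_pow, pow_card_eq_one', map_one]
    have hwn : w ^ Nat.card P = 1 := by
      show (MulAut.conjNormal h₀ : MulAut A) ^ Nat.card P = 1
      rw [← map_pow, pow_card_eq_one', map_one]
    exact inv_of_commuting (u s) w _ hcomm hβ1 hun hwn h.cop.symm y
  -- each constituent is `t`-invariant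
  have key2 : ∀ β : IrrCharacter A, classInner f (β : A → ℂ) ≠ 0 →
      ∀ y, (β : A → ℂ) (tA y) = (β : A → ℂ) y := by
    intro β hβ
    have h1 := key1 β hβ
    have hβt : IsIrrCharacter A ((β : A → ℂ) ∘ tA) :=
      isIrrCharacter_comp_of_surjective tA.toMonoidHom tA.surjective β.2
    have h2 : (β : A → ℂ) = (β : A → ℂ) ∘ tA := by
      apply uniq_on_A h β.2 hβt
      · exact fun s y => h1 s y
      · intro s y
        have h3 : tA ⟨a s y, h.Ainv s y y.2⟩ = u s (tA y) := Subtype.ext (hta s y).symm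
        show (β : A → ℂ) (tA ⟨a s y, h.Ainv s y y.2⟩) = (β : A → ℂ) (tA y)
        rw [h3]
        exact h1 s _
      · intro z hz
        show (β : A → ℂ) z = (β : A → ℂ) (tA z)
        have h4 : tA z = z := Subtype.ext (htZ z hz)
        rw [h4]
    intro y
    exact (congrFun h2 y).symm
  -- conclusion
  have hexp := classFunction_eq_sum hfcl
  have hgoal : f (tA ⟨x, hx⟩) = f ⟨x, hx⟩ := by
    rw [hexp]
    simp only [Finset.sum_apply, Pi.smul_apply, smul_eq_mul]
    refine Finset.sum_congr rfl fun β _ => ?_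
    by_cases hβ : classInner f (β : A → ℂ) = 0
    · rw [hβ, zero_mul, zero_mul]
    · rw [key2 β hβ]
  exact hgoal

/-- **The central theorem.** -/
theorem central_thm [Fintype Hp] (h : CSetup a A Hp Z) :
    (∀ χ : IrrCharacter P, (∀ s g, (χ : P → ℂ) (a s g) = (χ : P → ℂ) g) →
      ∃ η : IrrCharacter Hp,
        (∃ m : ℕ, classInner (fun c : Hp => (χ : P → ℂ) c) (η : Hp → ℂ) = m ∧ Odd m) ∧
        ∀ (η' : IrrCharacter Hp) (m : ℕ),
          classInner (fun c : Hp => (χ : P → ℂ) c) (η' : Hp → ℂ) = m → Odd m → η' = η) ∧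
    (∀ χ χ' : IrrCharacter P, (∀ s g, (χ : P → ℂ) (a s g) = (χ : P → ℂ) g) →
      (∀ s g, (χ' : P → ℂ) (a s g) = (χ' : P → ℂ) g) →
      ∀ (η : IrrCharacter Hp) (m m' : ℕ),
        classInner (fun c : Hp => (χ : P → ℂ) c) (η : Hp → ℂ) = m → Odd m →
        classInner (fun c : Hp => (χ' : P → ℂ) c) (η : Hp → ℂ) = m' → Odd m' → χ = χ') ∧
    (∀ η : IrrCharacter Hp, ∃ χ : IrrCharacter P,
      (∀ s g, (χ : P → ℂ) (a s g) = (χ : P → ℂ) g) ∧
      ∃ m : ℕ, classInner (fun c : Hp => (χ : P → ℂ) c) (η : Hp → ℂ) = m ∧ Odd m) := by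
  classical
  obtain ⟨t, ht, htH, htA, hta, hfix, hmod, htZ⟩ := exists_t h
  haveI hA : A.Normal := ⟨fun n hn g => h.Anorm g n hn⟩
  haveI : Fact (Nat.Prime 2) := ⟨Nat.prime_two⟩
  let K : Subgroup (MulAut P) := Subgroup.zpowers t
  have hKmem : ∀ b ∈ K, b = 1 ∨ b = t := by
    intro b hb
    obtain ⟨k, rfl⟩ := Subgroup.mem_zpowers_iff.mp hb
    have h2 : t ^ 2 = 1 := by rw [pow_two, ht]
    rcases Int.even_or_odd' k with ⟨m, rfl | rfl⟩
    · left
      rw [zpow_mul, zpow_two, ht, one_zpow]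
    · right
      rw [zpow_add, zpow_mul, zpow_two, ht, one_zpow, one_mul, zpow_one]
  have hKt : t ∈ K := Subgroup.mem_zpowers t
  have hKsq : ∀ b : K, b ^ 2 = 1 := by
    rintro ⟨b, hb⟩
    apply Subtype.ext
    rcases hKmem b hb with h1 | h1
    · subst h1
      simp
    · subst h1
      show b ^ 2 = 1
      rw [pow_two, ht]
  have hpg : IsPGroup 2 K := fun b => ⟨1, by simpa using hKsq b⟩
  have hcardK : Nat.card K ∣ 2 := by
    have h1 : Nat.card K = orderOf t := Nat.card_zpowers t
    rw [h1]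
    exact orderOf_dvd_of_pow_eq_one (by rw [pow_two, ht])
  have hcop : (Nat.card P).Coprime (Nat.card K) :=
    Nat.Coprime.coprime_dvd_right hcardK (Nat.Coprime.symm (Nat.coprime_two_left.mpr h.odd))
  have hmodel : IsFixModel K Hp.subtype := by
    refine ⟨Hp.subtype_injective, ?_, ?_⟩
    · intro c b hb
      rcases hKmem b hb with h1 | h1
      · rw [h1]
        rfl
      · rw [h1]
        exact htH c c.2
    · intro g hg
      exact ⟨⟨g, hfix g (hg t hKt)⟩, rfl⟩
  obtain ⟨π, hπ, hspec⟩ := corr_pgroup 2 _ P K rfl hpg hcop Hp Hp.subtype hmodel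
  have hInvA : ∀ χ : P → ℂ, (∀ g, χ (t g) = χ g) → InvA K χ := by
    intro χ h1 b hb g
    rcases hKmem b hb with h2 | h2
    · rw [h2]
      rfl
    · rw [h2]
      exact h1 g
  have hinvt : ∀ χ : IrrCharacter P, (∀ s g, (χ : P → ℂ) (a s g) = (χ : P → ℂ) g) →
      InvA K (χ : P → ℂ) := by
    intro χ hχ
    apply hInvA
    exact parity_inv h.odd t ht A htA hmod χ.2 (inv_on_A h t ht htA hta htZ χ.2 hχ)
  have hodd_iff : ∀ (χ : XA K) (β : IrrCharacter Hp) (m : ℕ),
      classInner (fun c : Hp => (χ.1 : P → ℂ) c) (β : Hp → ℂ) = m → (Odd m ↔ β = π χ) := by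
    intro χ β m hm
    have h1 := CorrSpec.not_dvd_iff Nat.prime_two hspec χ β m hm
    rw [← h1, Nat.odd_iff, ← Nat.two_dvd_ne_zero]
  refine ⟨?_, ?_, ?_⟩
  · intro χ hχ
    let χ' : XA K := ⟨χ, hinvt χ hχ⟩
    obtain ⟨m, hm⟩ := natCast_classInner_irr Hp.subtype χ'.1 (π χ')
    refine ⟨π χ', ⟨m, hm, (hodd_iff χ' _ m hm).mpr rfl⟩, ?_⟩
    intro η' m' hm' hodd'
    exact (hodd_iff χ' η' m' hm').mp hodd'
  · intro χ χ₂ hχ hχ₂ η m m' hm hodd hm' hodd'
    let x : XA K := ⟨χ, hinvt χ hχ⟩
    let x₂ : XA K := ⟨χ₂, hinvt χ₂ hχ₂⟩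
    have h1 := (hodd_iff x η m hm).mp hodd
    have h2 := (hodd_iff x₂ η m' hm').mp hodd'
    have h3 : x = x₂ := hπ.1 (h1.symm.trans h2)
    exact congrArg Subtype.val h3
  · intro η
    obtain ⟨x, hx⟩ := hπ.2 η
    obtain ⟨m, hm⟩ := natCast_classInner_irr Hp.subtype x.1 η
    have hodd : Odd m := (hodd_iff x η m hm).mpr hx.symm
    refine ⟨x.1, ?_, m, hm, hodd⟩
    intro s g
    let χ₂ : IrrCharacter P := ⟨(x.1 : P → ℂ) ∘ a s,
      isIrrCharacter_comp_of_surjective (a s).toMonoidHom (a s).surjective x.1.2⟩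
    have hinv₂ : InvA K (χ₂ : P → ℂ) := by
      apply hInvA
      intro g
      show (x.1 : P → ℂ) (a s (t g)) = (x.1 : P → ℂ) (a s g)
      rw [hta]
      exact x.2 t hKt _
    let x₂ : XA K := ⟨χ₂, hinv₂⟩
    have hres : (fun c : Hp => (χ₂ : P → ℂ) c) = (fun c : Hp => (x.1 : P → ℂ) c) := by
      funext c
      show (x.1 : P → ℂ) (a s c) = _
      rw [h.fix s c c.2]
    have h1 : classInner (fun c : Hp => (χ₂ : P → ℂ) c) (η : Hp → ℂ) = m := by
      rw [hres]
      exact hm
    have h2 := (hodd_iff x₂ η m h1).mp hodd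
    have h3 : x₂ = x := hπ.1 (h2.symm.trans hx.symm)
    have h4 : (χ₂ : P → ℂ) = (x.1 : P → ℂ) := congrArg (fun y : XA K => ((y.1 : IrrCharacter P) : P → ℂ)) h3
    exact congrFun h4 g

end Central

end Cfsg.Agent.Lib.IsaBaer
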