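import Mathlib
import Cfsg.Agent.Lib.CharEquiv
import Cfsg.Agent.Lib.CharKernel
import Cfsg.Agent.Lib.IsaBaer

/-!
# The covering group of a character triple

`ρ` an irreducible representation of `L₀`, invariant (through its character) under `G₀` acting by
`c : G₀ →* MulAut L₀`.  The group `Cov` of pairs `(g, X)` with `X ρ(ℓ) X⁻¹ = ρ(g ℓ g⁻¹)` and
`det(X)^|G₀| = 1`.
-/

set_option autoImplicit false
set_option linter.unusedVariables false
set_option linter.unusedSectionVars false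
set_option linter.style.haveILetI false

namespace Cfsg.Agent.Lib.IsaCover

open Cfsg Cfsg.Agent.Lib.CharBasic Cfsg.Agent.Lib.CharEquiv

universe u v

/-- The endomorphisms. -/
abbrev EE (d : ℕ) := Module.End ℂ (Fin d → ℂ)

/-- Scalars. -/
noncomputable def scal (d : ℕ) : ℂˣ →* (EE d)ˣ := Units.map (algebraMap ℂ (EE d)).toMonoidHom

theorem scal_val (d : ℕ) (κ : ℂˣ) : (((scal d κ : (EE d)ˣ)) : EE d) = (κ : ℂ) • LinearMap.id := by
  show algebraMap ℂ (EE d) (κ : ℂ) = _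
  rw [Module.algebraMap_end_eq_smul_id]

theorem scal_comm (d : ℕ) (κ : ℂˣ) (X : (EE d)ˣ) : scal d κ * X = X * scal d κ := by
  apply Units.ext
  show ((scal d κ : (EE d)ˣ) : EE d) * X = X * ((scal d κ : (EE d)ˣ) : EE d)
  rw [scal_val]
  ext v i
  simp [Module.End.mul_apply]

theorem det_scal (d : ℕ) (κ : ℂˣ) :
    LinearMap.det ((scal d κ : (EE d)ˣ) : EE d) = (κ : ℂ) ^ d := by
  rw [scal_val, LinearMap.det_smul, LinearMap.det_id, mul_one, Module.finrank_fin_fun]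

theorem scal_injective {d : ℕ} (hd : d ≠ 0) : Function.Injective (scal d) := by
  intro κ μ h
  apply Units.ext
  have h1 := congrArg (fun X : (EE d)ˣ => (X : EE d)) h
  simp only [scal_val] at h1
  have h2 := LinearMap.congr_fun h1 (fun _ => 1)
  have h3 := congrFun h2 ⟨0, Nat.pos_of_ne_zero hd⟩
  simpa using h3

section Main

variable {G₀ L₀ : Type u} [Group G₀] [Group L₀] {S : Type v} [Group S] {d : ℕ}

/-- The interface. -/
structure CovData (c : G₀ →* MulAut L₀) (j : L₀ →* G₀) (a₀ : S →* MulAut G₀) (b₀ : S →* MulAut L₀)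
    (ρ : Representation ℂ L₀ (Fin d → ℂ)) : Prop where
  cj : ∀ ℓ x, c (j ℓ) x = ℓ * x * ℓ⁻¹
  jc : ∀ g ℓ, j (c g ℓ) = g * j ℓ * g⁻¹
  jinj : Function.Injective j
  bc : ∀ s g ℓ, b₀ s (c g ℓ) = c (a₀ s g) (b₀ s ℓ)
  bj : ∀ s ℓ, j (b₀ s ℓ) = a₀ s (j ℓ)
  irr : ρ.IsIrreducible
  invG : ∀ g ℓ, ρ.character (c g ℓ) = ρ.character ℓ
  invS : ∀ s ℓ, ρ.character (b₀ s ℓ) = ρ.character ℓ

/-- The covering group. -/
def Cov (c : G₀ →* MulAut L₀) (ρ : Representation ℂ L₀ (Fin d → ℂ)) :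
    Subgroup (G₀ × (EE d)ˣ) where
  carrier := {γ | (∀ ℓ, ((γ.2 : (EE d)ˣ) : EE d) * ρ ℓ = ρ (c γ.1 ℓ) * ((γ.2 : (EE d)ˣ) : EE d)) ∧
    (LinearMap.det ((γ.2 : (EE d)ˣ) : EE d)) ^ Nat.card G₀ = 1}
  one_mem' := by
    refine ⟨fun ℓ => ?_, ?_⟩
    · simp
    · simp
  mul_mem' := by
    rintro ⟨g, X⟩ ⟨g', X'⟩ ⟨h1, h2⟩ ⟨h3, h4⟩
    refine ⟨fun ℓ => ?_, ?_⟩
    · show ((X * X' : (EE d)ˣ) : EE d) * ρ ℓ = ρ (c (g * g') ℓ) * ((X * X' : (EE d)ˣ) : EE d)
      rw [Units.val_mul, mul_assoc, h3 ℓ, ← mul_assoc, h1, map_mul, mul_assoc]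
      rfl
    · show (LinearMap.det ((X * X' : (EE d)ˣ) : EE d)) ^ Nat.card G₀ = 1
      rw [Units.val_mul, map_mul, mul_pow, h2, h4, one_mul]
  inv_mem' := by
    rintro ⟨g, X⟩ ⟨h1, h2⟩
    refine ⟨fun ℓ => ?_, ?_⟩
    · show ((X⁻¹ : (EE d)ˣ) : EE d) * ρ ℓ = ρ (c g⁻¹ ℓ) * ((X⁻¹ : (EE d)ˣ) : EE d)
      have h3 := h1 (c g⁻¹ ℓ)
      have h4 : c g (c g⁻¹ ℓ) = ℓ := by
        rw [← MulAut.mul_apply, ← map_mul, mul_inv_cancel, map_one]
        rfl
      simp only at h3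
      rw [h4] at h3
      calc ((X⁻¹ : (EE d)ˣ) : EE d) * ρ ℓ
          = ((X⁻¹ : (EE d)ˣ) : EE d) * (ρ ℓ * (X : EE d)) * ((X⁻¹ : (EE d)ˣ) : EE d) := by
            simp [mul_assoc]
        _ = ((X⁻¹ : (EE d)ˣ) : EE d) * ((X : EE d) * ρ (c g⁻¹ ℓ)) * ((X⁻¹ : (EE d)ˣ) : EE d) := by
            rw [h3]
        _ = ρ (c g⁻¹ ℓ) * ((X⁻¹ : (EE d)ˣ) : EE d) := by
            simp
    · show (LinearMap.det ((X⁻¹ : (EE d)ˣ) : EE d)) ^ Nat.card G₀ = 1
      have h3 : LinearMap.det ((X⁻¹ : (EE d)ˣ) : EE d) * LinearMap.det (X : EE d) = 1 := by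
        rw [← map_mul, Units.inv_mul, map_one]
      have h4 := congrArg (fun y : ℂ => y ^ Nat.card G₀) h3
      simp only [mul_pow, one_pow] at h4
      simp only at h2
      rw [h2, mul_one] at h4
      exact h4

variable {c : G₀ →* MulAut L₀} {ρ : Representation ℂ L₀ (Fin d → ℂ)}

theorem Cov.mem_iff (γ : G₀ × (EE d)ˣ) : γ ∈ Cov c ρ ↔
    (∀ ℓ, ((γ.2 : (EE d)ˣ) : EE d) * ρ ℓ = ρ (c γ.1 ℓ) * ((γ.2 : (EE d)ˣ) : EE d)) ∧
    (LinearMap.det ((γ.2 : (EE d)ˣ) : EE d)) ^ Nat.card G₀ = 1 := Iff.rfl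

/-- The projection. -/
def piC (c : G₀ →* MulAut L₀) (ρ : Representation ℂ L₀ (Fin d → ℂ)) : Cov c ρ →* G₀ :=
  (MonoidHom.fst _ _).comp (Cov c ρ).subtype

theorem piC_apply (γ : Cov c ρ) : piC c ρ γ = (γ : G₀ × (EE d)ˣ).1 := rfl

/-- The representation of the cover. -/
def repC (c : G₀ →* MulAut L₀) (ρ : Representation ℂ L₀ (Fin d → ℂ)) :
    Representation ℂ (Cov c ρ) (Fin d → ℂ) :=
  (Units.coeHom (EE d)).comp ((MonoidHom.snd _ _).comp (Cov c ρ).subtype)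

theorem repC_apply (γ : Cov c ρ) : repC c ρ γ = (((γ : G₀ × (EE d)ˣ).2 : (EE d)ˣ) : EE d) := rfl

/-- The character of the cover. -/
noncomputable def tauC (c : G₀ →* MulAut L₀) (ρ : Representation ℂ L₀ (Fin d → ℂ)) : Cov c ρ → ℂ :=
  (repC c ρ).character

theorem tauC_isChar : IsCharacter (Cov c ρ) (tauC c ρ) := ⟨d, repC c ρ, rfl⟩

section Schur

variable [Finite L₀]

/-- Schur's lemma for units. -/
theorem schur_units (hρ : ρ.IsIrreducible) (W : (EE d)ˣ)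
    (hW : ∀ ℓ, (W : EE d) * ρ ℓ = ρ ℓ * (W : EE d)) : ∃ κ : ℂˣ, W = scal d κ := by
  obtain ⟨κ, hκ⟩ := schur_scalar hρ (W : EE d) hW
  have hne : κ ≠ 0 := by
    rintro rfl
    rw [zero_smul] at hκ
    rw [isIrreducible_iff] at hρ
    haveI := hρ.1
    have h0 : (1 : EE d) = 0 := by
      have h1 : ((W⁻¹ : (EE d)ˣ) : EE d) * (W : EE d) = 1 := Units.inv_mul W
      rw [hκ, mul_zero] at h1
      exact h1.symm
    exact one_ne_zero h0
  refine ⟨Units.mk0 κ hne, Units.ext ?_⟩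
  rw [scal_val]
  exact hκ

/-- The existence of intertwiners. -/
theorem exists_intertwiner (f : MulAut L₀) (hf : ∀ ℓ, ρ.character (f ℓ) = ρ.character ℓ) :
    ∃ J : (EE d)ˣ, ∀ ℓ, (J : EE d) * ρ ℓ = ρ (f ℓ) * (J : EE d) := by
  let σ : Representation ℂ L₀ (Fin d → ℂ) := ρ.comp f.toMonoidHom
  have hchar : ρ.character = σ.character := by
    funext ℓ
    exact (hf ℓ).symm
  obtain ⟨E⟩ := equiv_of_character_eq (G := L₀) _ _ _ ρ σ rfl hchar
  refine ⟨LinearMap.GeneralLinearGroup.ofLinearEquiv E.toLinearEquiv, fun ℓ => ?_⟩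
  apply LinearMap.ext
  intro v
  exact E.toIntertwiningMap.isIntertwining _ _ ℓ v

end Schur

theorem scal_comm_E (d : ℕ) (κ : ℂˣ) (Y : EE d) :
    ((scal d κ : (EE d)ˣ) : EE d) * Y = Y * ((scal d κ : (EE d)ˣ) : EE d) := by
  rw [scal_val]
  ext v i
  simp [Module.End.mul_apply]

section Cover2

variable [Finite G₀] [Finite L₀] {j : L₀ →* G₀} {a₀ : S →* MulAut G₀} {b₀ : S →* MulAut L₀}

theorem CovData.d_ne_zero (h : CovData c j a₀ b₀ ρ) : d ≠ 0 := by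
  rintro rfl
  have h1 := h.irr
  rw [isIrreducible_iff] at h1
  obtain ⟨h2, -⟩ := h1
  exact not_subsingleton (Fin 0 → ℂ) inferInstance

theorem CovData.pow_card (h : CovData c j a₀ b₀ ρ) (ℓ : L₀) : ℓ ^ Nat.card G₀ = 1 := by
  obtain ⟨k, hk⟩ := Subgroup.card_dvd_of_injective j h.jinj
  rw [hk, pow_mul, pow_card_eq_one', one_pow]

theorem CovData.card_L_dvd (h : CovData c j a₀ b₀ ρ) : Nat.card L₀ ∣ Nat.card G₀ :=
  Subgroup.card_dvd_of_injective j h.jinj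

/-- The copy of `L₀` inside the cover. -/
noncomputable def iotaC (h : CovData c j a₀ b₀ ρ) : L₀ →* Cov c ρ where
  toFun ℓ := ⟨(j ℓ, ρ.toHomUnits ℓ), by
    refine ⟨fun x => ?_, ?_⟩
    · show ρ ℓ * ρ x = ρ (c (j ℓ) x) * ρ ℓ
      rw [h.cj, ← map_mul, ← map_mul]
      congr 1
      group
    · show (LinearMap.det (ρ ℓ)) ^ Nat.card G₀ = 1
      rw [← map_pow, ← map_pow, h.pow_card, map_one, map_one]⟩
  map_one' := by
    apply Subtype.ext
    apply Prod.ext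
    · exact map_one j
    · exact map_one _
  map_mul' x y := by
    apply Subtype.ext
    apply Prod.ext
    · exact map_mul j _ _
    · exact map_mul _ _ _

theorem iotaC_fst (h : CovData c j a₀ b₀ ρ) (ℓ : L₀) : piC c ρ (iotaC h ℓ) = j ℓ := rfl

theorem iotaC_rep (h : CovData c j a₀ b₀ ρ) (ℓ : L₀) : repC c ρ (iotaC h ℓ) = ρ ℓ := rfl

theorem tauC_iota (h : CovData c j a₀ b₀ ρ) (ℓ : L₀) :
    tauC c ρ (iotaC h ℓ) = ρ.character ℓ := rfl

theorem iotaC_injective (h : CovData c j a₀ b₀ ρ) : Function.Injective (iotaC h) := by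
  intro x y hxy
  exact h.jinj (congrArg (piC c ρ) hxy)

/-- Lifts exist. -/
theorem exists_lift (h : CovData c j a₀ b₀ ρ) (g : G₀) : ∃ γ : Cov c ρ, piC c ρ γ = g := by
  obtain ⟨J, hJ⟩ := exists_intertwiner (ρ := ρ) (c g) (h.invG g)
  have hd : 0 < d := Nat.pos_of_ne_zero h.d_ne_zero
  have hdet : LinearMap.det (J : EE d) ≠ 0 := by
    have h1 : LinearMap.det ((J⁻¹ : (EE d)ˣ) : EE d) * LinearMap.det (J : EE d) = 1 := by
      rw [← map_mul, Units.inv_mul, map_one]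
    exact right_ne_zero_of_mul_eq_one h1
  obtain ⟨z, hz⟩ := IsAlgClosed.exists_pow_nat_eq (LinearMap.det (J : EE d))⁻¹ hd
  have hz0 : z ≠ 0 := by
    rintro rfl
    rw [zero_pow h.d_ne_zero] at hz
    exact inv_ne_zero hdet hz.symm
  refine ⟨⟨(g, scal d (Units.mk0 z hz0) * J), ?_⟩, rfl⟩
  refine ⟨fun ℓ => ?_, ?_⟩
  · show (((scal d (Units.mk0 z hz0) * J : (EE d)ˣ)) : EE d) * ρ ℓ =
      ρ (c g ℓ) * (((scal d (Units.mk0 z hz0) * J : (EE d)ˣ)) : EE d)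
    rw [Units.val_mul, mul_assoc, hJ, ← mul_assoc, scal_comm_E, mul_assoc]
  · show (LinearMap.det (((scal d (Units.mk0 z hz0) * J : (EE d)ˣ)) : EE d)) ^ Nat.card G₀ = 1
    rw [Units.val_mul, map_mul, det_scal, Units.val_mk0, hz, inv_mul_cancel₀ hdet, one_pow]

/-- Elements of the kernel are scalars. -/
theorem ker_scal (h : CovData c j a₀ b₀ ρ) (γ : Cov c ρ) (hγ : piC c ρ γ = 1) :
    ∃ κ : ℂˣ, (γ : G₀ × (EE d)ˣ).2 = scal d κ ∧ κ ^ (d * Nat.card G₀) = 1 := by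
  obtain ⟨h1, h2⟩ := γ.2
  have h3 : (γ : G₀ × (EE d)ˣ).1 = 1 := hγ
  rw [h3] at h1
  obtain ⟨κ, hκ⟩ := schur_units h.irr (γ : G₀ × (EE d)ˣ).2 (fun ℓ => by
    have := h1 ℓ
    rw [map_one] at this
    exact this)
  refine ⟨κ, hκ, ?_⟩
  rw [hκ, det_scal] at h2
  apply Units.ext
  rw [Units.val_pow_eq_pow_val, pow_mul, h2]
  rfl

/-- The scalars inside the cover. -/
noncomputable def zetaC (h : CovData c j a₀ b₀ ρ) : rootsOfUnity (d * Nat.card G₀) ℂ →* Cov c ρ where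
  toFun κ := ⟨(1, scal d (κ : ℂˣ)), by
    refine ⟨fun ℓ => ?_, ?_⟩
    · rw [scal_comm_E]
      simp
    · show (LinearMap.det ((scal d (κ : ℂˣ) : (EE d)ˣ) : EE d)) ^ Nat.card G₀ = 1
      rw [det_scal, ← pow_mul]
      have h1 := κ.2
      rw [mem_rootsOfUnity] at h1
      have h2 := congrArg (fun u : ℂˣ => (u : ℂ)) h1
      simpa using h2⟩
  map_one' := by
    apply Subtype.ext
    apply Prod.ext
    · rfl
    · exact map_one (scal d)
  map_mul' x y := by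
    apply Subtype.ext
    apply Prod.ext
    · exact (mul_one _).symm
    · exact map_mul (scal d) _ _

theorem zetaC_val (h : CovData c j a₀ b₀ ρ) (κ : rootsOfUnity (d * Nat.card G₀) ℂ) :
    ((zetaC h κ : Cov c ρ) : G₀ × (EE d)ˣ) = (1, scal d (κ : ℂˣ)) := rfl

theorem zetaC_injective (h : CovData c j a₀ b₀ ρ) : Function.Injective (zetaC h) := by
  intro x y hxy
  have h1 := congrArg (fun γ : Cov c ρ => (γ : G₀ × (EE d)ˣ).2) hxy
  exact Subtype.ext (scal_injective h.d_ne_zero h1)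

theorem zetaC_central (h : CovData c j a₀ b₀ ρ) (κ : rootsOfUnity (d * Nat.card G₀) ℂ)
    (γ : Cov c ρ) : zetaC h κ * γ = γ * zetaC h κ := by
  apply Subtype.ext
  apply Prod.ext
  · show 1 * (γ : G₀ × (EE d)ˣ).1 = (γ : G₀ × (EE d)ˣ).1 * 1
    rw [one_mul, mul_one]
  · exact scal_comm d _ _

theorem ker_eq_zeta (h : CovData c j a₀ b₀ ρ) (γ : Cov c ρ) (hγ : piC c ρ γ = 1) :
    ∃ κ, zetaC h κ = γ := by
  obtain ⟨κ, h1, h2⟩ := ker_scal h γ hγ
  refine ⟨⟨κ, (mem_rootsOfUnity _ _).mpr h2⟩, ?_⟩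
  apply Subtype.ext
  apply Prod.ext
  · exact hγ.symm
  · exact h1.symm

theorem piC_surjective (h : CovData c j a₀ b₀ ρ) : Function.Surjective (piC c ρ) :=
  exists_lift h

theorem piC_ker_eq (h : CovData c j a₀ b₀ ρ) : (piC c ρ).ker = (zetaC h).range := by
  ext γ
  constructor
  · intro hγ
    exact ker_eq_zeta h γ hγ
  · rintro ⟨κ, rfl⟩
    rfl

theorem neZero_dN (h : CovData c j a₀ b₀ ρ) : NeZero (d * Nat.card G₀) :=
  ⟨mul_ne_zero h.d_ne_zero Nat.card_pos.ne'⟩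

/-- The cover is finite. -/
theorem cov_finite (h : CovData c j a₀ b₀ ρ) : Finite (Cov c ρ) := by
  haveI := neZero_dN h
  choose sel hsel using exists_lift h
  let f : G₀ × rootsOfUnity (d * Nat.card G₀) ℂ → Cov c ρ := fun q => sel q.1 * zetaC h q.2
  apply Finite.of_surjective f
  intro γ
  obtain ⟨κ, hκ⟩ := ker_eq_zeta h ((sel (piC c ρ γ))⁻¹ * γ) (by
    rw [map_mul, map_inv, hsel, inv_mul_cancel])
  refine ⟨(piC c ρ γ, κ), ?_⟩
  show sel (piC c ρ γ) * zetaC h κ = γ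
  rw [hκ]
  group

/-- The order of the cover. -/
theorem card_cov (h : CovData c j a₀ b₀ ρ) :
    Nat.card (Cov c ρ) = (d * Nat.card G₀) * Nat.card G₀ := by
  haveI := neZero_dN h
  haveI := cov_finite h
  have h1 := Subgroup.card_mul_index (piC c ρ).ker
  rw [Subgroup.index_ker, MonoidHom.range_eq_top.mpr (piC_surjective h), piC_ker_eq h] at h1
  have h2 : Nat.card (zetaC h).range = d * Nat.card G₀ := by
    exact (Nat.card_congr (MonoidHom.ofInjective (zetaC_injective h)).toEquiv).symm.trans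
      (Complex.card_rootsOfUnity (d * Nat.card G₀))
  rw [h2] at h1
  simpa using h1.symm

theorem conj_mem_cov (h : CovData c j a₀ b₀ ρ) (s : S) (J : (EE d)ˣ)
    (hJ : ∀ ℓ, (J : EE d) * ρ ℓ = ρ (b₀ s ℓ) * (J : EE d)) (γ : Cov c ρ) :
    (a₀ s (γ : G₀ × (EE d)ˣ).1, J * (γ : G₀ × (EE d)ˣ).2 * J⁻¹) ∈ Cov c ρ := by
  obtain ⟨h1, h2⟩ := γ.2
  set g := (γ : G₀ × (EE d)ˣ).1
  set X := (γ : G₀ × (EE d)ˣ).2
  refine ⟨fun ℓ => ?_, ?_⟩
  · show ((J * X * J⁻¹ : (EE d)ˣ) : EE d) * ρ ℓ =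
      ρ (c (a₀ s g) ℓ) * ((J * X * J⁻¹ : (EE d)ˣ) : EE d)
    set ℓ₀ := (b₀ s).symm ℓ with hℓ₀
    have h3 : b₀ s ℓ₀ = ℓ := by
      rw [hℓ₀]
      exact MulEquiv.apply_symm_apply _ _
    have h4 := hJ ℓ₀
    rw [h3] at h4
    have h5 : ((J⁻¹ : (EE d)ˣ) : EE d) * ρ ℓ = ρ ℓ₀ * ((J⁻¹ : (EE d)ˣ) : EE d) := by
      calc ((J⁻¹ : (EE d)ˣ) : EE d) * ρ ℓ
          = ((J⁻¹ : (EE d)ˣ) : EE d) * (ρ ℓ * (J : EE d)) * ((J⁻¹ : (EE d)ˣ) : EE d) := by
            simp [mul_assoc]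
        _ = ((J⁻¹ : (EE d)ˣ) : EE d) * ((J : EE d) * ρ ℓ₀) * ((J⁻¹ : (EE d)ˣ) : EE d) := by
            rw [h4]
        _ = _ := by simp
    have h6 : c (a₀ s g) ℓ = b₀ s (c g ℓ₀) := by
      rw [h.bc, h3]
    have h7 := h1 ℓ₀
    have h8 := hJ (c g ℓ₀)
    simp only [Units.val_mul]
    rw [h6]
    calc (J : EE d) * (X : EE d) * ((J⁻¹ : (EE d)ˣ) : EE d) * ρ ℓ
        = (J : EE d) * ((X : EE d) * (((J⁻¹ : (EE d)ˣ) : EE d) * ρ ℓ)) := by
          simp only [mul_assoc]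
      _ = (J : EE d) * (((X : EE d) * ρ ℓ₀) * ((J⁻¹ : (EE d)ˣ) : EE d)) := by
          rw [h5, mul_assoc]
      _ = ((J : EE d) * ρ (c g ℓ₀)) * ((X : EE d) * ((J⁻¹ : (EE d)ˣ) : EE d)) := by
          rw [h7]
          simp only [mul_assoc]
      _ = _ := by
          rw [h8]
          simp only [mul_assoc]
  · show (LinearMap.det ((J * X * J⁻¹ : (EE d)ˣ) : EE d)) ^ Nat.card G₀ = 1
    have h3 : LinearMap.det ((J * X * J⁻¹ : (EE d)ˣ) : EE d) = LinearMap.det (X : EE d) := by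
      simp only [Units.val_mul, map_mul]
      have h4 : LinearMap.det (J : EE d) * LinearMap.det ((J⁻¹ : (EE d)ˣ) : EE d) = 1 := by
        rw [← map_mul, Units.mul_inv, map_one]
      linear_combination (LinearMap.det (X : EE d)) * h4
    rw [h3]
    exact h2

/-- Conjugation by an intertwiner does not depend on the intertwiner. -/
theorem conj_eq_of_intertw (h : CovData c j a₀ b₀ ρ) (f : L₀ → L₀) (J J' : (EE d)ˣ)
    (hJ : ∀ ℓ, (J : EE d) * ρ ℓ = ρ (f ℓ) * (J : EE d))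
    (hJ' : ∀ ℓ, (J' : EE d) * ρ ℓ = ρ (f ℓ) * (J' : EE d)) (X : (EE d)ˣ) :
    J * X * J⁻¹ = J' * X * J'⁻¹ := by
  obtain ⟨κ, hκ⟩ := schur_units h.irr (J'⁻¹ * J) (fun ℓ => by
    rw [Units.val_mul, mul_assoc, hJ]
    have h1 : ((J'⁻¹ : (EE d)ˣ) : EE d) * ρ (f ℓ) = ρ ℓ * ((J'⁻¹ : (EE d)ˣ) : EE d) := by
      calc ((J'⁻¹ : (EE d)ˣ) : EE d) * ρ (f ℓ)
          = ((J'⁻¹ : (EE d)ˣ) : EE d) * (ρ (f ℓ) * (J' : EE d)) *
              ((J'⁻¹ : (EE d)ˣ) : EE d) := by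
            simp [mul_assoc]
        _ = ((J'⁻¹ : (EE d)ˣ) : EE d) * ((J' : EE d) * ρ ℓ) * ((J'⁻¹ : (EE d)ˣ) : EE d) := by
            rw [hJ']
        _ = _ := by simp
    rw [← mul_assoc, h1, mul_assoc])
  have h1 : J = J' * scal d κ := by
    rw [← hκ]
    group
  rw [h1, mul_inv_rev]
  have h2 := scal_comm d κ X
  calc J' * scal d κ * X * ((scal d κ)⁻¹ * J'⁻¹)
      = J' * (scal d κ * X) * ((scal d κ)⁻¹ * J'⁻¹) := by group
    _ = J' * (X * scal d κ) * ((scal d κ)⁻¹ * J'⁻¹) := by rw [h2]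
    _ = J' * X * J'⁻¹ := by group

/-- The chosen intertwiners. -/
noncomputable def jSel (h : CovData c j a₀ b₀ ρ) (s : S) : (EE d)ˣ :=
  Classical.choose (exists_intertwiner (ρ := ρ) (b₀ s) (h.invS s))

theorem jSel_spec (h : CovData c j a₀ b₀ ρ) (s : S) (ℓ : L₀) :
    (jSel h s : EE d) * ρ ℓ = ρ (b₀ s ℓ) * (jSel h s : EE d) :=
  Classical.choose_spec (exists_intertwiner (ρ := ρ) (b₀ s) (h.invS s)) ℓ

/-- The action of `s` on the cover. -/
noncomputable def aMap (h : CovData c j a₀ b₀ ρ) (s : S) : Cov c ρ →* Cov c ρ where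
  toFun γ := ⟨_, conj_mem_cov h s (jSel h s) (jSel_spec h s) γ⟩
  map_one' := by
    apply Subtype.ext
    apply Prod.ext
    · exact map_one (a₀ s)
    · show jSel h s * 1 * (jSel h s)⁻¹ = 1
      group
  map_mul' x y := by
    apply Subtype.ext
    apply Prod.ext
    · exact map_mul (a₀ s) _ _
    · show jSel h s * ((x : G₀ × (EE d)ˣ).2 * (y : G₀ × (EE d)ˣ).2) * (jSel h s)⁻¹ =
        (jSel h s * (x : G₀ × (EE d)ˣ).2 * (jSel h s)⁻¹) *
          (jSel h s * (y : G₀ × (EE d)ˣ).2 * (jSel h s)⁻¹)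
      group

theorem aMap_fst (h : CovData c j a₀ b₀ ρ) (s : S) (γ : Cov c ρ) :
    piC c ρ (aMap h s γ) = a₀ s (piC c ρ γ) := rfl

theorem aMap_snd (h : CovData c j a₀ b₀ ρ) (s : S) (γ : Cov c ρ) :
    ((aMap h s γ : Cov c ρ) : G₀ × (EE d)ˣ).2 =
      jSel h s * (γ : G₀ × (EE d)ˣ).2 * (jSel h s)⁻¹ := rfl

theorem aMap_mul_apply (h : CovData c j a₀ b₀ ρ) (s t : S) (γ : Cov c ρ) :
    aMap h (s * t) γ = aMap h s (aMap h t γ) := by
  apply Subtype.ext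
  apply Prod.ext
  · show a₀ (s * t) _ = a₀ s (a₀ t _)
    rw [map_mul]
    rfl
  · rw [aMap_snd, aMap_snd, aMap_snd]
    have h1 := conj_eq_of_intertw h (b₀ (s * t)) (jSel h (s * t)) (jSel h s * jSel h t)
      (jSel_spec h (s * t)) (fun ℓ => by
        rw [Units.val_mul, mul_assoc, jSel_spec, ← mul_assoc, jSel_spec, mul_assoc, map_mul]
        rfl) (γ : G₀ × (EE d)ˣ).2
    rw [h1]
    group

theorem aMap_one_apply (h : CovData c j a₀ b₀ ρ) (γ : Cov c ρ) : aMap h (1 : S) γ = γ := by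
  apply Subtype.ext
  apply Prod.ext
  · show a₀ 1 _ = _
    rw [map_one]
    rfl
  · rw [aMap_snd]
    have h1 := conj_eq_of_intertw h (b₀ 1) (jSel h 1) 1 (jSel_spec h 1) (fun ℓ => by
        rw [map_one]
        simp) (γ : G₀ × (EE d)ˣ).2
    rw [h1]
    group

/-- The action on the cover. -/
noncomputable def aC (h : CovData c j a₀ b₀ ρ) : S →* MulAut (Cov c ρ) where
  toFun s := MonoidHom.toMulEquiv (aMap h s) (aMap h s⁻¹)
    (by
      ext γ : 1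
      show aMap h s⁻¹ (aMap h s γ) = γ
      rw [← aMap_mul_apply, inv_mul_cancel, aMap_one_apply])
    (by
      ext γ : 1
      show aMap h s (aMap h s⁻¹ γ) = γ
      rw [← aMap_mul_apply, mul_inv_cancel, aMap_one_apply])
  map_one' := by
    ext γ : 1
    exact aMap_one_apply h γ
  map_mul' s t := by
    ext γ : 1
    exact aMap_mul_apply h s t γ

theorem aC_apply (h : CovData c j a₀ b₀ ρ) (s : S) (γ : Cov c ρ) : aC h s γ = aMap h s γ := rfl

theorem piC_aC (h : CovData c j a₀ b₀ ρ) (s : S) (γ : Cov c ρ) :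
    piC c ρ (aC h s γ) = a₀ s (piC c ρ γ) := rfl

theorem tauC_aC (h : CovData c j a₀ b₀ ρ) (s : S) (γ : Cov c ρ) :
    tauC c ρ (aC h s γ) = tauC c ρ γ := by
  show LinearMap.trace ℂ (Fin d → ℂ) ((jSel h s * (γ : G₀ × (EE d)ˣ).2 * (jSel h s)⁻¹ : (EE d)ˣ) : EE d) =
    LinearMap.trace ℂ (Fin d → ℂ) (((γ : G₀ × (EE d)ˣ).2 : (EE d)ˣ) : EE d)
  rw [Units.val_mul, Units.val_mul, LinearMap.trace_mul_comm, ← mul_assoc, Units.inv_mul, one_mul]

theorem aC_iota (h : CovData c j a₀ b₀ ρ) (s : S) (ℓ : L₀) :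
    aC h s (iotaC h ℓ) = iotaC h (b₀ s ℓ) := by
  apply Subtype.ext
  apply Prod.ext
  · exact (h.bj s ℓ).symm
  · apply Units.ext
    show (jSel h s : EE d) * ρ ℓ * ((jSel h s)⁻¹ : (EE d)ˣ) = ρ (b₀ s ℓ)
    rw [jSel_spec, mul_assoc, Units.mul_inv, mul_one]

/-- Lifts of `S`-fixed elements are `S`-fixed. -/
theorem aC_fixed [Finite S] (h : CovData c j a₀ b₀ ρ) (hcop : d.Coprime (Nat.card S)) (γ : Cov c ρ)
    (hγ : ∀ s, a₀ s (piC c ρ γ) = piC c ρ γ) (s : S) : aC h s γ = γ := by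
  -- the scalar
  obtain ⟨κ, hκ, -⟩ := ker_scal h (γ⁻¹ * aC h s γ) (by
    rw [map_mul, map_inv, piC_aC, hγ, inv_mul_cancel])
  set X := (γ : G₀ × (EE d)ˣ).2 with hX
  have h1 : jSel h s * X * (jSel h s)⁻¹ = X * scal d κ := by
    have h2 : ((γ⁻¹ * aC h s γ : Cov c ρ) : G₀ × (EE d)ˣ).2 =
        X⁻¹ * (jSel h s * X * (jSel h s)⁻¹) := rfl
    rw [h2] at hκ
    rw [← hκ]
    group
  have hdet : κ ^ d = 1 := by
    have h2 := congrArg (fun U : (EE d)ˣ => LinearMap.det (U : EE d)) h1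
    simp only [Units.val_mul, map_mul, det_scal] at h2
    have h4 : LinearMap.det (jSel h s : EE d) * LinearMap.det (((jSel h s)⁻¹ : (EE d)ˣ) : EE d) = 1 := by
      rw [← map_mul, Units.mul_inv, map_one]
    have h5 : LinearMap.det (((X⁻¹ : (EE d)ˣ)) : EE d) * LinearMap.det (X : EE d) = 1 := by
      rw [← map_mul, Units.inv_mul, map_one]
    have h6 : (κ : ℂ) ^ d = 1 := by
      have h7 : LinearMap.det (X : EE d) ≠ 0 := right_ne_zero_of_mul_eq_one h5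
      apply mul_left_cancel₀ h7
      rw [mul_one, ← h2]
      linear_combination (LinearMap.det (X : EE d)) * h4
    apply Units.ext
    simpa using h6
  -- iterates
  have hiter : ∀ k : ℕ, ((aC h (s ^ k) γ : Cov c ρ) : G₀ × (EE d)ˣ).2 = X * scal d (κ ^ k) := by
    intro k
    induction k with
    | zero =>
        rw [pow_zero, map_one]
        simp [hX]
    | succ k ih =>
        rw [pow_succ', map_mul, MulAut.mul_apply, aC_apply h s, aMap_snd, ih, pow_succ', map_mul]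
        have h2 := scal_comm d (κ ^ k) (jSel h s)⁻¹
        calc jSel h s * (X * scal d (κ ^ k)) * (jSel h s)⁻¹
            = jSel h s * X * (scal d (κ ^ k) * (jSel h s)⁻¹) := by group
          _ = jSel h s * X * ((jSel h s)⁻¹ * scal d (κ ^ k)) := by rw [h2]
          _ = (jSel h s * X * (jSel h s)⁻¹) * scal d (κ ^ k) := by group
          _ = X * scal d κ * scal d (κ ^ k) := by rw [h1]
          _ = X * (scal d κ * scal d (κ ^ k)) := by group
  have hS : κ ^ Nat.card S = 1 := by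
    have h2 := hiter (Nat.card S)
    rw [pow_card_eq_one', map_one, MulAut.one_apply] at h2
    have h3 : scal d (κ ^ Nat.card S) = 1 := by
      have h4 : X = X * scal d (κ ^ Nat.card S) := h2
      exact (mul_eq_left.mp h4.symm)
    apply scal_injective h.d_ne_zero
    rw [h3, map_one]
  have hκ1 : κ = 1 := by
    have h4 := orderOf_dvd_of_pow_eq_one hdet
    have h5 := orderOf_dvd_of_pow_eq_one hS
    have h6 : orderOf κ ∣ 1 := by
      rw [← hcop.gcd_eq_one]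
      exact Nat.dvd_gcd h4 h5
    exact orderOf_eq_one_iff.mp (Nat.dvd_one.mp h6)
  apply Subtype.ext
  apply Prod.ext
  · exact hγ s
  · show jSel h s * X * (jSel h s)⁻¹ = X
    rw [h1, hκ1, map_one, mul_one]

end Cover2

end Main

end Cfsg.Agent.Lib.IsaCover
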