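import Mathlib
import Cfsg.Agent.Lib.IsaCover
import Cfsg.Agent.Lib.IsaCentral

/-!
# From the cover to the central theorem
-/

set_option autoImplicit false
set_option linter.unusedVariables false
set_option linter.unusedSectionVars false
set_option linter.style.haveILetI false

namespace Cfsg.Agent.Lib.IsaCover

open Cfsg Cfsg.Agent.Lib.CharBasic Cfsg.Agent.Lib.CharEquiv Cfsg.Agent.Lib.GlaubSyl1
open Cfsg.Agent.Lib.IsaBaer Cfsg.Agent.Lib.CharKernel Cfsg.Agent.Lib.CharCentral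
open scoped ComplexConjugate

universe u v

/-- Independence of the inner product from the `Fintype` instance. -/
theorem classInner_inst {G : Type*} [Group G] (i₁ i₂ : Fintype G) (f g : G → ℂ) :
    @classInner G _ i₁ f g = @classInner G _ i₂ f g := by
  rw [Subsingleton.elim i₁ i₂]

section GalData

variable {I B L : Type u} [Group I] [Group B] [Group L]

/-- A Gallagher situation. -/
structure GalData (q : I →* B) (i₀ : L →* I) (eta : I → ℂ) (θ : L → ℂ) : Prop where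
  surj : Function.Surjective q
  inj : Function.Injective i₀
  ker : ∀ x, q x = 1 ↔ ∃ ℓ, i₀ ℓ = x
  char : IsCharacter I eta
  val : ∀ ℓ, eta (i₀ ℓ) = θ ℓ
  irr : IsIrrCharacter L θ

variable {q : I →* B} {i₀ : L →* I} {eta : I → ℂ} {θ : L → ℂ}

/-- The copy of `L` as the kernel. -/
noncomputable def GalData.equivKer (D : GalData q i₀ eta θ) : L ≃* q.ker :=
  MulEquiv.ofBijective (i₀.codRestrict q.ker (fun ℓ => (D.ker _).mpr ⟨ℓ, rfl⟩))
    ⟨fun x y hxy => D.inj (congrArg Subtype.val hxy), fun x => by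
      obtain ⟨ℓ, hℓ⟩ := (D.ker _).mp x.2
      exact ⟨ℓ, Subtype.ext hℓ⟩⟩

theorem GalData.equivKer_val (D : GalData q i₀ eta θ) (ℓ : L) :
    ((D.equivKer ℓ : q.ker) : I) = i₀ ℓ := rfl

theorem GalData.hetaN (D : GalData q i₀ eta θ) :
    IsIrrCharacter q.ker (fun n : q.ker => eta n) := by
  have h1 : (fun n : q.ker => eta n) = θ ∘ D.equivKer.symm := by
    funext n
    obtain ⟨ℓ, rfl⟩ := D.equivKer.surjective n
    simp only [Function.comp_apply, MulEquiv.symm_apply_apply]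
    exact D.val ℓ
  rw [h1]
  exact isIrrCharacter_comp_of_surjective D.equivKer.symm.toMonoidHom D.equivKer.symm.surjective
    D.irr

variable [Finite I] [Finite B]

theorem GalData.irr_gal (D : GalData q i₀ eta θ) {β : B → ℂ} (hβ : IsIrrCharacter B β) :
    IsIrrCharacter I (fun x => β (q x) * eta x) :=
  isIrr_gal q D.surj D.char D.hetaN hβ

theorem GalData.gal_inj (D : GalData q i₀ eta θ) {β β' : B → ℂ} (hβ : IsIrrCharacter B β)
    (hβ' : IsIrrCharacter B β') (h : ∀ x, β (q x) * eta x = β' (q x) * eta x) : β = β' :=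
  gal_injective q D.surj D.char D.hetaN hβ hβ' (funext h)

theorem GalData.inner_gal [Fintype I] [Fintype B] (D : GalData q i₀ eta θ) (α β : B → ℂ) :
    classInner (fun x => α (q x) * eta x) (fun x => β (q x) * eta x) = classInner α β := by
  have h1 := classInner_gal q D.surj D.char D.hetaN α β
  convert h1 using 1
  · exact classInner_inst _ _ _ _
  · exact classInner_inst _ _ _ _

theorem GalData.exists_over [Fintype I] [Fintype L] (D : GalData q i₀ eta θ) {f : I → ℂ}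
    (hf : IsIrrCharacter I f) (hov : classInner (fun ℓ => f (i₀ ℓ)) θ ≠ 0) :
    ∃ β : IrrCharacter B, ∀ x, f x = (β : B → ℂ) (q x) * eta x := by
  classical
  letI : Fintype q.ker := Fintype.ofFinite _
  have h0 : classInner (fun n : q.ker => f n) (fun n : q.ker => eta n) ≠ 0 := by
    have h1 := Cfsg.Agent.Lib.Clifford.classInner_comp_mulEquiv D.equivKer
      (fun n : q.ker => f n) (fun n : q.ker => eta n)
    have h2 : (fun n : q.ker => eta n) ∘ D.equivKer = θ := by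
      funext ℓ
      exact D.val ℓ
    rw [h2] at h1
    rw [← h1]
    exact hov
  obtain ⟨β, hβ, hfe⟩ := exists_gal q D.surj D.char D.hetaN hf (by
    convert h0 using 1)
  exact ⟨⟨β, hβ⟩, fun x => congrFun hfe x⟩

end GalData

/-- Inflation and inner products, for any instance. -/
theorem inner_infl {I B : Type*} [Group I] [Group B] [Fintype I] [Fintype B] (q : I →* B)
    (hq : Function.Surjective q) (α β : B → ℂ) :
    classInner (fun i => α (q i)) (fun i => β (q i)) = classInner α β := by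
  have h1 := classInner_infl q hq α β
  convert h1 using 1
  · exact classInner_inst _ _ _ _
  · exact classInner_inst _ _ _ _

/-- An irreducible character constant on the kernel comes from the image. -/
theorem exists_descent {I W : Type*} [Group I] [Group W] [Finite I] (p : I →* W)
    (hp : Function.Surjective p) {f : I → ℂ} (hf : IsIrrCharacter I f)
    (hk : ∀ k, p k = 1 → f k = f 1) : ∃ χ : IrrCharacter W, ∀ x, (χ : W → ℂ) (p x) = f x := by
  obtain ⟨a', ha'irr, ha'eq⟩ := exists_quotient_irr p.ker hf (fun x hx => hk x hx)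
  let e : I ⧸ p.ker ≃* W := QuotientGroup.quotientKerEquivOfSurjective p hp
  have he : ∀ g : I, e.symm (p g) = (g : I ⧸ p.ker) := by
    intro g
    rw [MulEquiv.symm_apply_eq]
    rfl
  refine ⟨⟨a' ∘ e.symm, isIrrCharacter_comp_of_surjective e.symm.toMonoidHom e.symm.surjective
    ha'irr⟩, fun x => ?_⟩
  show a' (e.symm (p x)) = f x
  rw [he, ha'eq]

/-- Central elements act by the same scalar on a character and its constituents. -/
theorem central_kernel_iff {X : Type*} [Group X] [Fintype X] (K : Subgroup X) [Fintype K]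
    {ξ : X → ℂ} (hξ : IsIrrCharacter X ξ) {ζ : K → ℂ} (hζ : IsIrrCharacter K ζ)
    (hne : classInner (fun y : K => ξ y) ζ ≠ 0) (k : K) (hk : ∀ x : X, (k : X) * x = x * (k : X)) :
    ξ k = ξ 1 ↔ ζ k = ζ 1 := by
  have hξ1 := Cfsg.Agent.Lib.Clifford.irr_degree_ne_zero hξ
  have hζ1 := Cfsg.Agent.Lib.Clifford.irr_degree_ne_zero hζ
  have hξm : ∀ y : X, ξ ((k : X) * y) = (ξ k / ξ 1) * ξ y := by
    intro y
    have h1 := central_mul hξ hk y
    field_simp
    linear_combination h1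
  have hkK : ∀ y : K, k * y = y * k := fun y => Subtype.ext (hk y)
  have hζm : ∀ y : K, ζ (k * y) = (ζ k / ζ 1) * ζ y := by
    intro y
    have h1 := central_mul hζ hkK y
    field_simp
    linear_combination h1
  have hsub : classInner (fun y : K => ξ y) ζ =
      (ξ k / ξ 1) * conj (ζ k / ζ 1) * classInner (fun y : K => ξ y) ζ := by
    unfold classInner
    have h1 : ∑ y : K, ξ y * conj (ζ y) = ∑ y : K, ξ ((k * y : K) : X) * conj (ζ (k * y)) :=
      (Fintype.sum_equiv (Equiv.mulLeft k) _ _ (fun y => rfl)).symm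
    nth_rw 1 [h1]
    have h2 : ∀ y : K, ξ ((k * y : K) : X) * conj (ζ (k * y)) =
        (ξ k / ξ 1) * conj (ζ k / ζ 1) * (ξ y * conj (ζ y)) := by
      intro y
      rw [hζm y, Subgroup.coe_mul, hξm, map_mul]
      ring
    simp only [h2]
    rw [← Finset.mul_sum]
    ring
  have hprod : (ξ k / ξ 1) * conj (ζ k / ζ 1) = 1 := by
    have h1 : ((ξ k / ξ 1) * conj (ζ k / ζ 1) - 1) * classInner (fun y : K => ξ y) ζ = 0 := by
      linear_combination -hsub
    rcases mul_eq_zero.mp h1 with h2 | h2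
    · linear_combination h2
    · exact absurd h2 hne
  constructor
  · intro h1
    rw [h1, div_self hξ1, one_mul] at hprod
    have h2 : ζ k / ζ 1 = 1 := by
      have := congrArg (starRingEnd ℂ) hprod
      simpa using this
    exact (div_eq_one_iff_eq hζ1).mp h2
  · intro h1
    rw [h1, div_self hζ1, map_one, mul_one] at hprod
    exact (div_eq_one_iff_eq hξ1).mp hprod

section Quot

variable {G₀ L₀ : Type u} [Group G₀] [Group L₀] {S : Type v} [Group S] {d : ℕ} [Finite G₀]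
  [Finite L₀] {j : L₀ →* G₀} {a₀ : S →* MulAut G₀} {b₀ : S →* MulAut L₀}
  {c : G₀ →* MulAut L₀} {ρ : Representation ℂ L₀ (Fin d → ℂ)}

instance iota_normal (h : CovData c j a₀ b₀ ρ) : (iotaC h).range.Normal := by
  constructor
  rintro _ ⟨ℓ, rfl⟩ γ
  refine ⟨c (γ : G₀ × (EE d)ˣ).1 ℓ, ?_⟩
  apply Subtype.ext
  apply Prod.ext
  · exact h.jc _ _
  · apply Units.ext
    show ρ (c (γ : G₀ × (EE d)ˣ).1 ℓ) = ((γ : G₀ × (EE d)ˣ).2 : EE d) * ρ ℓ *
      (((γ : G₀ × (EE d)ˣ).2)⁻¹ : (EE d)ˣ)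
    rw [γ.2.1 ℓ, mul_assoc, Units.mul_inv, mul_one]

/-- The central quotient. -/
noncomputable abbrev PP (h : CovData c j a₀ b₀ ρ) : Type u := Cov c ρ ⧸ (iotaC h).range

/-- The quotient map. -/
noncomputable def qC (h : CovData c j a₀ b₀ ρ) : Cov c ρ →* PP h := QuotientGroup.mk' _

theorem qC_surjective (h : CovData c j a₀ b₀ ρ) : Function.Surjective (qC h) :=
  QuotientGroup.mk'_surjective _

theorem qC_eq_one (h : CovData c j a₀ b₀ ρ) (γ : Cov c ρ) :
    qC h γ = 1 ↔ ∃ ℓ, iotaC h ℓ = γ :=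
  QuotientGroup.eq_one_iff γ

theorem PP_finite (h : CovData c j a₀ b₀ ρ) : Finite (PP h) := by
  haveI := cov_finite h
  infer_instance

theorem aC_map_range (h : CovData c j a₀ b₀ ρ) (s : S) :
    Subgroup.map ((aC h s : MulAut (Cov c ρ)) : Cov c ρ →* Cov c ρ) (iotaC h).range =
      (iotaC h).range := by
  ext γ
  constructor
  · rintro ⟨_, ⟨ℓ, rfl⟩, rfl⟩
    exact ⟨b₀ s ℓ, (aC_iota h s ℓ).symm⟩
  · rintro ⟨ℓ, rfl⟩
    refine ⟨_, ⟨(b₀ s).symm ℓ, rfl⟩, ?_⟩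
    show aC h s (iotaC h ((b₀ s).symm ℓ)) = _
    rw [aC_iota, MulEquiv.apply_symm_apply]

/-- The action of an element on the quotient. -/
noncomputable def aPs (h : CovData c j a₀ b₀ ρ) (s : S) : PP h ≃* PP h :=
  QuotientGroup.congr _ _ (aC h s) (aC_map_range h s)

theorem aPs_mk (h : CovData c j a₀ b₀ ρ) (s : S) (γ : Cov c ρ) :
    aPs h s (γ : PP h) = ((aC h s γ : Cov c ρ) : PP h) :=
  QuotientGroup.congr_mk _ _ _ _ γ

/-- The action on the quotient. -/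
noncomputable def aP (h : CovData c j a₀ b₀ ρ) : S →* MulAut (PP h) where
  toFun s := aPs h s
  map_one' := by
    ext x
    induction x using QuotientGroup.induction_on with | _ γ => ?_
    show aPs h 1 (γ : PP h) = (γ : PP h)
    rw [aPs_mk, map_one]
    rfl
  map_mul' s t := by
    ext x
    induction x using QuotientGroup.induction_on with | _ γ => ?_
    show aPs h (s * t) (γ : PP h) = aPs h s (aPs h t (γ : PP h))
    rw [aPs_mk, aPs_mk, aPs_mk, map_mul]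
    rfl

theorem aP_q (h : CovData c j a₀ b₀ ρ) (s : S) (γ : Cov c ρ) :
    aP h s (qC h γ) = qC h (aC h s γ) :=
  aPs_mk h s γ

/-- The image in the quotient of a subgroup of `G₀`. -/
noncomputable def liftS (h : CovData c j a₀ b₀ ρ) (X : Subgroup G₀) : Subgroup (PP h) :=
  (X.comap (piC c ρ)).map (qC h)

theorem mem_liftS (h : CovData c j a₀ b₀ ρ) {X : Subgroup G₀} (hX : j.range ≤ X) (γ : Cov c ρ) :
    qC h γ ∈ liftS h X ↔ piC c ρ γ ∈ X := by
  constructor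
  · rintro ⟨γ', hγ', heq⟩
    have h1 : qC h (γ'⁻¹ * γ) = 1 := by
      rw [map_mul, map_inv, heq, inv_mul_cancel]
    obtain ⟨ℓ, hℓ⟩ := (qC_eq_one h _).mp h1
    have h2 : γ = γ' * iotaC h ℓ := by
      rw [hℓ]
      group
    rw [h2, map_mul]
    exact X.mul_mem hγ' (hX ⟨ℓ, rfl⟩)
  · intro h1
    exact ⟨γ, h1, rfl⟩

/-- The hypotheses on `G₀`. -/
structure YData (a₀ : S →* MulAut G₀) (j : L₀ →* G₀) (A₀ H₀ : Subgroup G₀) : Prop where
  odd : Odd (Nat.card G₀)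
  cop : (Nat.card G₀).Coprime (Nat.card S)
  LA : j.range ≤ A₀
  LH : j.range ≤ H₀
  Anorm : ∀ g, ∀ x ∈ A₀, g * x * g⁻¹ ∈ A₀
  Ainv : ∀ s, ∀ x ∈ A₀, a₀ s x ∈ A₀
  comm : ∀ x ∈ A₀, ∀ y ∈ A₀, x * y * x⁻¹ * y⁻¹ ∈ j.range
  gen : ∀ g, ∃ x ∈ A₀, ∃ y ∈ H₀, g = x * y
  int : ∀ x ∈ A₀, x ∈ H₀ → x ∈ j.range
  fpf : ∀ x ∈ A₀, (∀ s, x⁻¹ * a₀ s x ∈ j.range) → x ∈ j.range
  Hfix : ∀ y ∈ H₀, ∃ ℓ, ∃ u ∈ H₀, (∀ s, a₀ s u = u) ∧ y = j ℓ * u

theorem CovData.d_dvd (h : CovData c j a₀ b₀ ρ) : d ∣ Nat.card G₀ := by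
  have hirr : IsIrrCharacter L₀ ρ.character := ⟨d, ρ, h.irr, rfl⟩
  have h1 := charDegree_dvd_card hirr
  have h2 : charDegree ρ.character = d := by
    have h3 := one_eq_charDegree (IsIrrCharacter.isCharacter hirr)
    rw [char_one_eq_rep] at h3
    exact_mod_cast h3.symm
  rw [h2] at h1
  exact h1.trans h.card_L_dvd

/-- **The central setting.** -/
theorem cSetup [Finite S] (h : CovData c j a₀ b₀ ρ) {A₀ H₀ : Subgroup G₀} (D : YData a₀ j A₀ H₀) :
    CSetup (aP h) (liftS h A₀) (liftS h H₀) (liftS h j.range) := by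
  haveI := cov_finite h
  have hJ : j.range ≤ j.range := le_rfl
  have hcardP : Nat.card (PP h) ∣ (d * Nat.card G₀) * Nat.card G₀ := by
    rw [← card_cov h]
    exact Subgroup.card_quotient_dvd_card _
  have hdc : d.Coprime (Nat.card S) := Nat.Coprime.coprime_dvd_left h.d_dvd D.cop
  have hpq : ∀ p : PP h, ∃ γ, qC h γ = p := qC_surjective h
  have hZcen : ∀ γ : Cov c ρ, piC c ρ γ ∈ j.range → ∀ p : PP h, qC h γ * p = p * qC h γ := by
    intro γ hγ p
    obtain ⟨ℓ, hℓ⟩ := hγ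
    obtain ⟨δ, rfl⟩ := hpq p
    obtain ⟨κ, hκ⟩ := ker_eq_zeta h ((iotaC h ℓ)⁻¹ * γ) (by
      rw [map_mul, map_inv, iotaC_fst, hℓ, inv_mul_cancel])
    have h1 : γ = iotaC h ℓ * zetaC h κ := by
      rw [hκ]
      group
    have h2 : qC h (iotaC h ℓ) = 1 := (qC_eq_one h _).mpr ⟨ℓ, rfl⟩
    rw [h1, map_mul, h2, one_mul, ← map_mul, ← map_mul, zetaC_central]
  refine
    { odd := Odd.of_dvd_nat (by
        have hodd : Odd (d * Nat.card G₀) :=
          Odd.mul (Odd.of_dvd_nat D.odd h.d_dvd) D.odd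
        exact hodd.mul D.odd) hcardP
      cop := Nat.Coprime.coprime_dvd_left hcardP (Nat.Coprime.mul_left
        (Nat.Coprime.mul_left hdc D.cop) D.cop)
      fix := ?_
      cen := ?_
      ZA := ?_
      ZH := ?_
      Anorm := ?_
      Ainv := ?_
      comm := ?_
      gen := ?_
      int := ?_
      fpf := ?_ }
  · -- `S` fixes `Hp`
    rintro s _ ⟨γ, hγ, rfl⟩
    obtain ⟨ℓ, u, hu, hfix, hy⟩ := D.Hfix _ hγ
    have hδ : piC c ρ ((iotaC h ℓ)⁻¹ * γ) = u := by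
      rw [map_mul, map_inv, iotaC_fst, hy]
      group
    have hfixδ := aC_fixed h hdc ((iotaC h ℓ)⁻¹ * γ) (fun s => by rw [hδ, hfix]) s
    have hι : ∀ ℓ', qC h (iotaC h ℓ') = 1 := fun ℓ' => (qC_eq_one h _).mpr ⟨ℓ', rfl⟩
    rw [aP_q]
    calc qC h (aC h s γ) = qC h (aC h s (iotaC h ℓ * ((iotaC h ℓ)⁻¹ * γ))) := by
          rw [mul_inv_cancel_left]
      _ = qC h (iotaC h (b₀ s ℓ)) * qC h (aC h s ((iotaC h ℓ)⁻¹ * γ)) := by
          rw [map_mul (aC h s), aC_iota, map_mul]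
      _ = qC h γ := by
          rw [hfixδ, hι, one_mul, map_mul, map_inv, hι, inv_one, one_mul]
  · rintro _ ⟨γ, hγ, rfl⟩ p
    exact hZcen γ hγ p
  · rintro _ ⟨γ, hγ, rfl⟩
    exact ⟨γ, D.LA hγ, rfl⟩
  · rintro _ ⟨γ, hγ, rfl⟩
    exact ⟨γ, D.LH hγ, rfl⟩
  · rintro p x hx
    obtain ⟨δ, rfl⟩ := hpq p
    obtain ⟨γ, hγ, rfl⟩ := hx
    rw [← map_inv, ← map_mul, ← map_mul, mem_liftS h D.LA]
    rw [map_mul, map_mul, map_inv]
    exact D.Anorm _ _ hγ
  · rintro s _ ⟨γ, hγ, rfl⟩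
    rw [aP_q, mem_liftS h D.LA, piC_aC]
    exact D.Ainv s _ hγ
  · rintro _ ⟨γ, hγ, rfl⟩ _ ⟨δ, hδ, rfl⟩
    rw [← map_inv, ← map_inv, ← map_mul, ← map_mul, ← map_mul, mem_liftS h hJ]
    rw [map_mul, map_mul, map_mul, map_inv, map_inv]
    exact D.comm _ hγ _ hδ
  · intro p
    obtain ⟨γ, rfl⟩ := hpq p
    obtain ⟨x, hx, y, hy, hxy⟩ := D.gen (piC c ρ γ)
    obtain ⟨δ, hδ⟩ := exists_lift h x
    refine ⟨qC h δ, ⟨δ, by show piC c ρ δ ∈ A₀; rw [hδ]; exact hx, rfl⟩, qC h (δ⁻¹ * γ),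
      ⟨δ⁻¹ * γ, ?_, rfl⟩, ?_⟩
    · show piC c ρ (δ⁻¹ * γ) ∈ H₀
      rw [map_mul, map_inv, hδ, hxy]
      simpa using hy
    · rw [← map_mul]
      congr 1
      group
  · rintro _ ⟨γ, hγ, rfl⟩ hH
    rw [mem_liftS h hJ]
    exact D.int _ hγ ((mem_liftS h D.LH γ).mp hH)
  · rintro _ ⟨γ, hγ, rfl⟩ hs
    rw [mem_liftS h hJ]
    apply D.fpf _ hγ
    intro s
    have h1 := hs s
    rw [aP_q, ← map_inv, ← map_mul, mem_liftS h hJ, map_mul, map_inv, piC_aC] at h1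
    exact h1

section ThmY

variable [Finite S] {A₀ H₀ : Subgroup G₀} {H₁ : Type u} [Group H₁] [Finite H₁]

/-- The preimage of `H₀`. -/
abbrev hatH (c : G₀ →* MulAut L₀) (ρ : Representation ℂ L₀ (Fin d → ℂ)) (H₀ : Subgroup G₀) :
    Subgroup (Cov c ρ) := H₀.comap (piC c ρ)

/-- The map to `H₁`. -/
noncomputable def piH (e : H₁ ≃* H₀) : hatH c ρ H₀ →* H₁ :=
  e.symm.toMonoidHom.comp ((piC c ρ).subgroupComap H₀)

theorem piH_val (e : H₁ ≃* H₀) (γ : hatH c ρ H₀) :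
    ((e (piH e γ) : H₀) : G₀) = piC c ρ γ := by
  show ((e (e.symm _) : H₀) : G₀) = _
  rw [MulEquiv.apply_symm_apply]
  rfl

theorem piH_surj (h : CovData c j a₀ b₀ ρ) (e : H₁ ≃* H₀) : Function.Surjective (piH (c := c) (ρ := ρ) e) := by
  intro y
  obtain ⟨γ, hγ⟩ := exists_lift h ((e y : H₀) : G₀)
  refine ⟨⟨γ, by
    show piC c ρ γ ∈ H₀
    rw [hγ]
    exact (e y).2⟩, ?_⟩
  apply e.injective
  apply Subtype.ext
  rw [piH_val]
  exact hγ

/-- The map to the image in the quotient. -/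
noncomputable def qH (h : CovData c j a₀ b₀ ρ) : hatH c ρ H₀ →* liftS h H₀ :=
  (qC h).subgroupMap (hatH c ρ H₀)

theorem qH_val (h : CovData c j a₀ b₀ ρ) (γ : hatH c ρ H₀) : ((qH h γ : liftS h H₀) : PP h) = qC h γ :=
  rfl

theorem qH_surj (h : CovData c j a₀ b₀ ρ) : Function.Surjective (qH (H₀ := H₀) h) :=
  (qC h).subgroupMap_surjective _

/-- The copy of `L₀` in the preimage. -/
noncomputable def iotaH (h : CovData c j a₀ b₀ ρ) (D : YData a₀ j A₀ H₀) : L₀ →* hatH c ρ H₀ :=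
  (iotaC h).codRestrict _ (fun ℓ => D.LH ⟨ℓ, rfl⟩)

theorem galG (h : CovData c j a₀ b₀ ρ) :
    GalData (qC h) (iotaC h) (tauC c ρ) ρ.character where
  surj := qC_surjective h
  inj := iotaC_injective h
  ker := qC_eq_one h
  char := tauC_isChar
  val := tauC_iota h
  irr := ⟨d, ρ, h.irr, rfl⟩

theorem galH (h : CovData c j a₀ b₀ ρ) (D : YData a₀ j A₀ H₀) :
    GalData (qH h) (iotaH h D) (fun γ : hatH c ρ H₀ => tauC c ρ γ) ρ.character where
  surj := qH_surj h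
  inj := fun x y hxy => iotaC_injective h (congrArg Subtype.val hxy)
  ker := fun x => by
    constructor
    · intro h1
      have h2 : qC h x = 1 := congrArg Subtype.val h1
      obtain ⟨ℓ, hℓ⟩ := (qC_eq_one h _).mp h2
      exact ⟨ℓ, Subtype.ext hℓ⟩
    · rintro ⟨ℓ, rfl⟩
      apply Subtype.ext
      exact (qC_eq_one h _).mpr ⟨ℓ, rfl⟩
  char := isCharacter_restrict _ tauC_isChar
  val := tauC_iota h
  irr := ⟨d, ρ, h.irr, rfl⟩

theorem ker_central (h : CovData c j a₀ b₀ ρ) (k : Cov c ρ) (hk : piC c ρ k = 1) (x : Cov c ρ) :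
    k * x = x * k := by
  obtain ⟨κ, rfl⟩ := ker_eq_zeta h k hk
  exact zetaC_central h κ x

set_option maxHeartbeats 1000000 in
/-- **Theorem Y.** -/
theorem thmY [Fintype G₀] [Fintype L₀] [Fintype H₁] (h : CovData c j a₀ b₀ ρ) (D : YData a₀ j A₀ H₀)
    (e : H₁ ≃* H₀) (jH : L₀ → H₁) (hjH : ∀ ℓ, ((e (jH ℓ) : H₀) : G₀) = j ℓ) :
    (∀ χ : IrrCharacter G₀, (∀ s g, (χ : G₀ → ℂ) (a₀ s g) = (χ : G₀ → ℂ) g) →
      classInner (fun ℓ => (χ : G₀ → ℂ) (j ℓ)) ρ.character ≠ 0 →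
      ∃ ψ : IrrCharacter H₁, classInner (fun ℓ => (ψ : H₁ → ℂ) (jH ℓ)) ρ.character ≠ 0 ∧
        (∃ m : ℕ, classInner (fun y => (χ : G₀ → ℂ) (e y)) (ψ : H₁ → ℂ) = m ∧ Odd m) ∧
        ∀ ψ' : IrrCharacter H₁, classInner (fun ℓ => (ψ' : H₁ → ℂ) (jH ℓ)) ρ.character ≠ 0 →
          ∀ m' : ℕ, classInner (fun y => (χ : G₀ → ℂ) (e y)) (ψ' : H₁ → ℂ) = m' → Odd m' →
            ψ' = ψ) ∧
    (∀ χ χ' : IrrCharacter G₀, (∀ s g, (χ : G₀ → ℂ) (a₀ s g) = (χ : G₀ → ℂ) g) →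
      classInner (fun ℓ => (χ : G₀ → ℂ) (j ℓ)) ρ.character ≠ 0 →
      (∀ s g, (χ' : G₀ → ℂ) (a₀ s g) = (χ' : G₀ → ℂ) g) →
      classInner (fun ℓ => (χ' : G₀ → ℂ) (j ℓ)) ρ.character ≠ 0 →
      ∀ ψ : IrrCharacter H₁, classInner (fun ℓ => (ψ : H₁ → ℂ) (jH ℓ)) ρ.character ≠ 0 →
      ∀ m m' : ℕ, classInner (fun y => (χ : G₀ → ℂ) (e y)) (ψ : H₁ → ℂ) = m → Odd m →
        classInner (fun y => (χ' : G₀ → ℂ) (e y)) (ψ : H₁ → ℂ) = m' → Odd m' → χ = χ') ∧
    (∀ ψ : IrrCharacter H₁, classInner (fun ℓ => (ψ : H₁ → ℂ) (jH ℓ)) ρ.character ≠ 0 →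
      ∃ χ : IrrCharacter G₀, (∀ s g, (χ : G₀ → ℂ) (a₀ s g) = (χ : G₀ → ℂ) g) ∧
        classInner (fun ℓ => (χ : G₀ → ℂ) (j ℓ)) ρ.character ≠ 0 ∧
        ∃ m : ℕ, classInner (fun y => (χ : G₀ → ℂ) (e y)) (ψ : H₁ → ℂ) = m ∧ Odd m) ∧
    (∀ ψ : IrrCharacter H₁, classInner (fun ℓ => (ψ : H₁ → ℂ) (jH ℓ)) ρ.character ≠ 0 →
      ∀ (s : S) (y y' : H₁), ((e y' : H₀) : G₀) = a₀ s ((e y : H₀) : G₀) →
        (ψ : H₁ → ℂ) y' = (ψ : H₁ → ℂ) y) := by
  classical
  haveI := cov_finite h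
  haveI := PP_finite h
  letI : Fintype (Cov c ρ) := Fintype.ofFinite _
  letI : Fintype (PP h) := Fintype.ofFinite _
  letI : Fintype S := Fintype.ofFinite _
  letI : Fintype (hatH c ρ H₀) := Fintype.ofFinite _
  letI : Fintype (liftS h H₀) := Fintype.ofFinite _
  have hθ : IsIrrCharacter L₀ ρ.character := ⟨d, ρ, h.irr, rfl⟩
  have hπs := piC_surjective h
  have hπHs := piH_surj (H₀ := H₀) h e
  have gG := galG h
  have gH := galH h D
  obtain ⟨c1, c2, c3⟩ := central_thm (a := aP h) (Hp := liftS h H₀) (cSetup h D)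
  have hpiι : ∀ ℓ, piH e (iotaH h D ℓ) = jH ℓ := by
    intro ℓ
    apply e.injective
    apply Subtype.ext
    rw [piH_val, hjH]
    rfl
  have hqι : ∀ ℓ, qH h (iotaH h D ℓ) = 1 := fun ℓ =>
    Subtype.ext ((qC_eq_one h _).mpr ⟨ℓ, rfl⟩)
  -- characters of `G₀`
  have stepG : ∀ χ : IrrCharacter G₀, classInner (fun ℓ => (χ : G₀ → ℂ) (j ℓ)) ρ.character ≠ 0 →
      ∃ R : IrrCharacter (PP h), ∀ γ, (χ : G₀ → ℂ) (piC c ρ γ) =
        (R : PP h → ℂ) (qC h γ) * tauC c ρ γ := fun χ hχ =>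
    gG.exists_over (isIrrCharacter_comp_of_surjective (piC c ρ) hπs χ.2) hχ
  -- characters of `H₁`
  have stepH : ∀ ψ : IrrCharacter H₁, classInner (fun ℓ => (ψ : H₁ → ℂ) (jH ℓ)) ρ.character ≠ 0 →
      ∃ η : IrrCharacter (liftS h H₀), ∀ γ : hatH c ρ H₀, (ψ : H₁ → ℂ) (piH e γ) =
        (η : liftS h H₀ → ℂ) (qH h γ) * tauC c ρ γ := by
    intro ψ hψ
    apply gH.exists_over (isIrrCharacter_comp_of_surjective (piH e) hπHs ψ.2)
    convert hψ using 3
    show (ψ : H₁ → ℂ) (piH e (iotaH h D _)) = _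
    rw [hpiι]
  -- multiplicities
  have hmult : ∀ (χ : IrrCharacter G₀) (R : IrrCharacter (PP h)) (ψ : IrrCharacter H₁)
      (η : IrrCharacter (liftS h H₀)),
      (∀ γ, (χ : G₀ → ℂ) (piC c ρ γ) = (R : PP h → ℂ) (qC h γ) * tauC c ρ γ) →
      (∀ γ : hatH c ρ H₀, (ψ : H₁ → ℂ) (piH e γ) =
        (η : liftS h H₀ → ℂ) (qH h γ) * tauC c ρ γ) →
      classInner (fun y => (χ : G₀ → ℂ) (e y)) (ψ : H₁ → ℂ) =
        classInner (fun x : liftS h H₀ => (R : PP h → ℂ) x) (η : liftS h H₀ → ℂ) := by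
    intro χ R ψ η hR hη
    rw [← inner_infl (piH e) hπHs (fun y => (χ : G₀ → ℂ) (e y)) (ψ : H₁ → ℂ)]
    have h1 : (fun γ : hatH c ρ H₀ => (χ : G₀ → ℂ) ((e (piH e γ) : H₀) : G₀)) =
        fun γ => (fun x : liftS h H₀ => (R : PP h → ℂ) x) (qH h γ) * tauC c ρ γ := by
      funext γ
      rw [piH_val, hR]
      rfl
    have h2 : (fun γ : hatH c ρ H₀ => (ψ : H₁ → ℂ) (piH e γ)) =
        fun γ => (η : liftS h H₀ → ℂ) (qH h γ) * tauC c ρ γ := funext hη
    rw [h1, h2]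
    exact gH.inner_gal (fun x : liftS h H₀ => (R : PP h → ℂ) x) (η : liftS h H₀ → ℂ)
  -- restriction of the lifted character
  have hinnerK : ∀ (ξ : Cov c ρ → ℂ) (R : IrrCharacter (PP h)) (η : IrrCharacter (liftS h H₀)),
      (∀ γ, ξ γ = (R : PP h → ℂ) (qC h γ) * tauC c ρ γ) →
      classInner (fun γ : hatH c ρ H₀ => ξ γ)
        (fun γ : hatH c ρ H₀ => (η : liftS h H₀ → ℂ) (qH h γ) * tauC c ρ γ) =
      classInner (fun x : liftS h H₀ => (R : PP h → ℂ) x) (η : liftS h H₀ → ℂ) := by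
    intro ξ R η hξ
    have h1 : (fun γ : hatH c ρ H₀ => ξ γ) =
        fun γ => (fun x : liftS h H₀ => (R : PP h → ℂ) x) (qH h γ) * tauC c ρ γ := by
      funext γ
      exact hξ γ
    rw [h1]
    exact gH.inner_gal (fun x : liftS h H₀ => (R : PP h → ℂ) x) (η : liftS h H₀ → ℂ)
  -- invariance of the quotient characters
  have hRinv : ∀ (χ : IrrCharacter G₀) (R : IrrCharacter (PP h)),
      (∀ s g, (χ : G₀ → ℂ) (a₀ s g) = (χ : G₀ → ℂ) g) →
      (∀ γ, (χ : G₀ → ℂ) (piC c ρ γ) = (R : PP h → ℂ) (qC h γ) * tauC c ρ γ) →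
      ∀ s x, (R : PP h → ℂ) (aP h s x) = (R : PP h → ℂ) x := by
    intro χ R hinv hR s x
    have h1 : (R : PP h → ℂ) ∘ aP h s = (R : PP h → ℂ) := by
      apply gG.gal_inj (isIrrCharacter_comp_of_surjective (aP h s).toMonoidHom (aP h s).surjective R.2)
        R.2
      intro γ
      have h2 := hR (aC h s γ)
      rw [piC_aC, hinv, tauC_aC, hR, ← aP_q] at h2
      exact h2.symm
    exact congrFun h1 x
  have hHfix := (cSetup h D).fix
  refine ⟨?_, ?_, ?_, ?_⟩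
  · -- existence and uniqueness
    intro χ hinv hov
    obtain ⟨R, hR⟩ := stepG χ hov
    obtain ⟨η, ⟨m, hm, hodd⟩, huniq⟩ := c1 R (hRinv χ R hinv hR)
    have hm0 : (m : ℂ) ≠ 0 := by
      have : m ≠ 0 := by
        rintro rfl
        simp at hodd
      exact_mod_cast this
    have hζ := gH.irr_gal η.2
    have hξ : IsIrrCharacter (Cov c ρ) ((χ : G₀ → ℂ) ∘ piC c ρ) :=
      isIrrCharacter_comp_of_surjective (piC c ρ) hπs χ.2
    have hne : classInner (fun γ : hatH c ρ H₀ => ((χ : G₀ → ℂ) ∘ piC c ρ) γ)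
        (fun γ : hatH c ρ H₀ => (η : liftS h H₀ → ℂ) (qH h γ) * tauC c ρ γ) ≠ 0 := by
      rw [hinnerK ((χ : G₀ → ℂ) ∘ piC c ρ) R η hR, hm]
      exact hm0
    obtain ⟨ψ, hψ⟩ := exists_descent (piH e) hπHs hζ (by
      intro k hk
      have hk' : piC c ρ k = 1 := by
        rw [← piH_val e k, hk, map_one]
        rfl
      have h1 := (central_kernel_iff _ hξ hζ hne k (ker_central h k hk')).mp (by
        show (χ : G₀ → ℂ) (piC c ρ k) = (χ : G₀ → ℂ) (piC c ρ 1)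
        rw [hk', map_one])
      exact h1)
    have hψη : ∀ γ : hatH c ρ H₀, (ψ : H₁ → ℂ) (piH e γ) =
        (η : liftS h H₀ → ℂ) (qH h γ) * tauC c ρ γ := hψ
    refine ⟨ψ, ?_, ⟨m, ?_, hodd⟩, ?_⟩
    · have h1 : (fun ℓ => (ψ : H₁ → ℂ) (jH ℓ)) = ((η : liftS h H₀ → ℂ) 1) • ρ.character := by
        funext ℓ
        rw [← hpiι, hψη, hqι]
        rfl
      rw [h1, classInner_smul_left, classInner_irr_self hθ, mul_one]
      exact Cfsg.Agent.Lib.Clifford.irr_degree_ne_zero η.2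
    · rw [hmult χ R ψ η hR hψη, hm]
    · intro ψ' hψ' m' hm' hodd'
      obtain ⟨η', hη'⟩ := stepH ψ' hψ'
      rw [hmult χ R ψ' η' hR hη'] at hm'
      have h1 := huniq η' m' hm' hodd'
      apply Subtype.ext
      funext y
      obtain ⟨γ, rfl⟩ := hπHs y
      rw [hη', hψη, h1]
  · -- injectivity
    intro χ χ' hinv hov hinv' hov' ψ hψ m m' hm hodd hm' hodd'
    obtain ⟨R, hR⟩ := stepG χ hov
    obtain ⟨R', hR'⟩ := stepG χ' hov'
    obtain ⟨η, hη⟩ := stepH ψ hψ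
    rw [hmult χ R ψ η hR hη] at hm
    rw [hmult χ' R' ψ η hR' hη] at hm'
    have h1 := c2 R R' (hRinv χ R hinv hR) (hRinv χ' R' hinv' hR') η m m' hm hodd hm' hodd'
    apply Subtype.ext
    funext g
    obtain ⟨γ, rfl⟩ := hπs g
    rw [hR, hR', h1]
  · -- surjectivity
    intro ψ hψ
    obtain ⟨η, hη⟩ := stepH ψ hψ
    obtain ⟨R, hRinv', m, hm, hodd⟩ := c3 η
    have hm0 : (m : ℂ) ≠ 0 := by
      have : m ≠ 0 := by
        rintro rfl
        simp at hodd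
      exact_mod_cast this
    have hζ := gH.irr_gal η.2
    have hξ := gG.irr_gal R.2
    have hne : classInner (fun γ : hatH c ρ H₀ => (fun x => (R : PP h → ℂ) (qC h x) * tauC c ρ x) γ)
        (fun γ : hatH c ρ H₀ => (η : liftS h H₀ → ℂ) (qH h γ) * tauC c ρ γ) ≠ 0 := by
      rw [hinnerK (fun x => (R : PP h → ℂ) (qC h x) * tauC c ρ x) R η (fun γ => rfl), hm]
      exact hm0
    obtain ⟨χ, hχ⟩ := exists_descent (piC c ρ) hπs hξ (by
      intro k hk
      have hkH : k ∈ hatH c ρ H₀ := by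
        show piC c ρ k ∈ H₀
        rw [hk]
        exact H₀.one_mem
      have h1 := (central_kernel_iff (hatH c ρ H₀) hξ hζ hne ⟨k, hkH⟩ (ker_central h k hk)).mpr (by
        have h2 : piH e ⟨k, hkH⟩ = 1 := by
          apply e.injective
          apply Subtype.ext
          rw [piH_val, hk, map_one]
          rfl
        have h3 := hη ⟨k, hkH⟩
        have h4 := hη 1
        rw [map_one] at h4
        show (η : liftS h H₀ → ℂ) (qH h ⟨k, hkH⟩) * tauC c ρ k =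
          (η : liftS h H₀ → ℂ) (qH h 1) * tauC c ρ ((1 : hatH c ρ H₀) : Cov c ρ)
        rw [← h3, ← h4, h2])
      exact h1)
    have hχR : ∀ γ, (χ : G₀ → ℂ) (piC c ρ γ) = (R : PP h → ℂ) (qC h γ) * tauC c ρ γ := hχ
    refine ⟨χ, ?_, ?_, m, ?_, hodd⟩
    · intro s g
      obtain ⟨γ, rfl⟩ := hπs g
      rw [← piC_aC h s γ, hχR, hχR, tauC_aC, ← aP_q, hRinv']
    · have h1 : (fun ℓ => (χ : G₀ → ℂ) (j ℓ)) = ((R : PP h → ℂ) 1) • ρ.character := by
        funext ℓ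
        rw [← iotaC_fst h ℓ, hχR, (qC_eq_one h _).mpr ⟨ℓ, rfl⟩, tauC_iota]
        rfl
      rw [h1, classInner_smul_left, classInner_irr_self hθ, mul_one]
      exact Cfsg.Agent.Lib.Clifford.irr_degree_ne_zero R.2
    · rw [hmult χ R ψ η hχR hη, hm]
  · -- invariance of the characters of `H₁`
    intro ψ hψ s y y' hyy
    obtain ⟨η, hη⟩ := stepH ψ hψ
    obtain ⟨γ, rfl⟩ := hπHs y
    have hmem : aC h s (γ : Cov c ρ) ∈ hatH c ρ H₀ := by
      show piC c ρ (aC h s γ) ∈ H₀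
      rw [piC_aC, ← piH_val e γ, ← hyy]
      exact (e y').2
    have hy' : piH e ⟨aC h s γ, hmem⟩ = y' := by
      apply e.injective
      apply Subtype.ext
      rw [piH_val, hyy, piH_val]
      rfl
    rw [← hy', hη, hη]
    have h1 : ((qH h ⟨aC h s γ, hmem⟩ : liftS h H₀) : PP h) = (qH h γ : liftS h H₀) := by
      show qC h (aC h s γ) = qC h γ
      rw [← aP_q]
      exact hHfix s _ (qH h γ).2
    have h2 : qH h ⟨aC h s γ, hmem⟩ = qH h γ := Subtype.ext h1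
    rw [h2]
    show _ * tauC c ρ (aC h s γ) = _
    rw [tauC_aC]

end ThmY

end Quot

end Cfsg.Agent.Lib.IsaCover
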