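import Mathlib
import Cfsg.Agent.Lib.IsaY
import Cfsg.Agent.Lib.CharClifford
import Cfsg.Agent.Lib.CoprimeInv
import Cfsg.Agent.S4447

/-!
# Clifford reduction, relative form
-/

set_option autoImplicit false
set_option linter.unusedVariables false
set_option linter.unusedSectionVars false
set_option linter.style.haveILetI false

namespace Cfsg.Agent.Lib.IsaCliff

open Cfsg Cfsg.Agent.Lib.CharBasic Cfsg.Agent.Lib.CharInd Cfsg.Agent.Lib.CharInduction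
open Cfsg.Agent.Lib.Clifford Cfsg.Agent.Lib.CharClifford Cfsg.Agent.Lib.GlaubCorr
open Cfsg.Agent.Lib.IsaCover
open scoped ComplexConjugate

universe u

section Coset

variable {Γ : Type u} [Group Γ] [Finite Γ]

/-- **Lifting a stable coset** to a fixed element. -/
theorem coset_fix {G S T : Subgroup Γ} (hT : Group.IsSolvable T) (hTG : T ≤ G)
    (hSG : ∀ s ∈ S, ∀ g ∈ G, s * g * s⁻¹ ∈ G) (hST : ∀ s ∈ S, ∀ t ∈ T, s * t * s⁻¹ ∈ T)
    (hc : (Nat.card G).Coprime (Nat.card S)) {g : Γ} (hg : g ∈ G)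
    (hst : ∀ s ∈ S, g⁻¹ * (s * g * s⁻¹) ∈ T) : ∃ t ∈ T, ∀ s ∈ S, s * (g * t) * s⁻¹ = g * t := by
  open Cfsg.Agent.Lib.CoprimeInv in
  have hcT : (Nat.card T).Coprime (Nat.card S) :=
    Nat.Coprime.coprime_dvd_left (Subgroup.card_dvd_of_le hTG) hc
  have hSn : S ≤ Subgroup.normalizer (T : Set Γ) := by
    intro s hs
    rw [Subgroup.mem_normalizer_iff]
    intro x
    constructor
    · exact fun hx => hST s hs x hx
    · intro hx
      have := hST s⁻¹ (S.inv_mem hs) _ hx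
      simpa [mul_assoc] using this
  let K₂ : Subgroup Γ := cj S g⁻¹
  have hK₂mem : ∀ x, x ∈ K₂ ↔ g * x * g⁻¹ ∈ S := by
    intro x
    rw [mem_cj]
    simp
  have hK₂form : ∀ s ∈ S, g⁻¹ * s * g = (g⁻¹ * (s * g * s⁻¹)) * s := by
    intro s hs
    group
  have hK₂n : K₂ ≤ Subgroup.normalizer (T : Set Γ) := by
    intro x hx
    have hs := (hK₂mem x).mp hx
    have h1 : x = (g⁻¹ * ((g * x * g⁻¹) * g * (g * x * g⁻¹)⁻¹)) * (g * x * g⁻¹) := by
      group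
    rw [h1]
    exact Subgroup.mul_mem _ (Subgroup.le_normalizer (hst _ hs)) (hSn hs)
  have hd₁ : T ⊓ S = ⊥ := inf_eq_bot_of_coprime' hcT
  have hcK₂ : Nat.card K₂ = Nat.card S := card_cj S g⁻¹
  have hd₂ : T ⊓ K₂ = ⊥ := inf_eq_bot_of_coprime' (by rw [hcK₂]; exact hcT)
  have hsup : T ⊔ S = T ⊔ K₂ := by
    apply le_antisymm
    · refine sup_le le_sup_left ?_
      intro s hs
      have h1 : s = (g⁻¹ * (s * g * s⁻¹))⁻¹ * (g⁻¹ * s * g) := by
        group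
      rw [h1]
      refine Subgroup.mul_mem _ (Subgroup.inv_mem _ (Subgroup.mem_sup_left (hst s hs)))
        (Subgroup.mem_sup_right ((hK₂mem _).mpr ?_))
      have : g * (g⁻¹ * s * g) * g⁻¹ = s := by group
      rw [this]
      exact hs
    · refine sup_le le_sup_left ?_
      intro x hx
      have hs := (hK₂mem x).mp hx
      have h1 : x = (g⁻¹ * ((g * x * g⁻¹) * g * (g * x * g⁻¹)⁻¹)) * (g * x * g⁻¹) := by
        group
      rw [h1]
      exact Subgroup.mul_mem _ (Subgroup.mem_sup_left (hst _ hs)) (Subgroup.mem_sup_right hs)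
  obtain ⟨n, hn, hK⟩ := exists_conj_rel hT hSn hK₂n hd₁ hd₂ hsup hcT
  refine ⟨n, hn, ?_⟩
  set c := g * n with hc'
  have hcG : c ∈ G := G.mul_mem hg (hTG hn)
  have hcS : ∀ s ∈ S, c * s * c⁻¹ ∈ S := by
    intro s hs
    have h1 : n * s * n⁻¹ ∈ K₂ := by
      rw [hK]
      exact conj_mem_cj hs
    have h2 := (hK₂mem _).mp h1
    have h3 : g * (n * s * n⁻¹) * g⁻¹ = c * s * c⁻¹ := by
      rw [hc']
      group
    rwa [h3] at h2
  intro s hs
  have h1 : c * s * c⁻¹ * s⁻¹ ∈ S := S.mul_mem (hcS s hs) (S.inv_mem hs)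
  have h2 : c * s * c⁻¹ * s⁻¹ ∈ G := by
    have h3 : c * s * c⁻¹ * s⁻¹ = c * (s * c⁻¹ * s⁻¹) := by group
    rw [h3]
    exact G.mul_mem hcG (hSG s hs _ (G.inv_mem hcG))
  have h4 : G ⊓ S = ⊥ := inf_eq_bot_of_coprime' hc
  have h5 : c * s * c⁻¹ * s⁻¹ ∈ G ⊓ S := ⟨h2, h1⟩
  rw [h4, Subgroup.mem_bot] at h5
  have h6 : c * s = s * c := by
    have h7 : c * s * c⁻¹ = s := by
      rwa [mul_inv_eq_one] at h5
    rw [mul_inv_eq_iff_eq_mul] at h7
    exact h7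
  rw [← h6]
  group

end Coset

section Rel

variable {Γ : Type u} [Group Γ] [Finite Γ] [fX : ∀ X : Subgroup Γ, Fintype X]

/-- Restriction between subgroups. -/
def res {Y X : Subgroup Γ} (h : Y ≤ X) (f : X → ℂ) : Y → ℂ := fun y => f ⟨y, h y.2⟩

theorem isChar_res {Y X : Subgroup Γ} (h : Y ≤ X) {f : X → ℂ} (hf : IsCharacter X f) :
    IsCharacter Y (res h f) :=
  isCharacter_comp (Subgroup.inclusion h) hf

/-- Restriction in two steps. -/
theorem sum_formula {Y X W : Subgroup Γ} (hYX : Y ≤ X) (hXW : X ≤ W) {F : W → ℂ}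
    (hF : IsCharacter W F) (β : Y → ℂ) :
    classInner (res (hYX.trans hXW) F) β = ∑ i : IrrCharacter X,
      classInner (res hXW F) (i : X → ℂ) * classInner (res hYX (i : X → ℂ)) β := by
  have hcl := isClassFunction_of_isCharacter (isChar_res hXW hF)
  have hexp := classFunction_eq_sum hcl
  have h1 : res (hYX.trans hXW) F =
      ∑ i : IrrCharacter X, classInner (res hXW F) (i : X → ℂ) • res hYX (i : X → ℂ) := by
    funext y
    have h2 := congrFun hexp ⟨y, hYX y.2⟩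
    simp only [Finset.sum_apply, Pi.smul_apply] at h2 ⊢
    exact h2
  rw [h1, classInner_sum_left]
  refine Finset.sum_congr rfl fun i _ => ?_
  rw [classInner_smul_left]

/-- Natural number form of the sum formula. -/
theorem exists_nat_sum {Y X W : Subgroup Γ} (hYX : Y ≤ X) (hXW : X ≤ W) {F : W → ℂ}
    (hF : IsCharacter W F) {β : Y → ℂ} (hβ : IsIrrCharacter Y β) :
    ∃ (a b : IrrCharacter X → ℕ) (n : ℕ),
      (∀ i : IrrCharacter X, classInner (res hXW F) (i : X → ℂ) = a i) ∧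
      (∀ i : IrrCharacter X, classInner (res hYX (i : X → ℂ)) β = b i) ∧
      classInner (res (hYX.trans hXW) F) β = n ∧ n = ∑ i, a i * b i := by
  have h1 : ∀ i : IrrCharacter X, ∃ n : ℕ, classInner (res hXW F) (i : X → ℂ) = n := fun i =>
    classInner_char_irr (isChar_res hXW hF) i.2
  have h2 : ∀ i : IrrCharacter X, ∃ n : ℕ, classInner (res hYX (i : X → ℂ)) β = n := fun i =>
    classInner_char_irr (isChar_res hYX (IsIrrCharacter.isCharacter i.2)) hβ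
  choose a ha using h1
  choose b hb using h2
  refine ⟨a, b, ∑ i, a i * b i, ha, hb, ?_, rfl⟩
  rw [sum_formula hYX hXW hF β]
  simp only [ha, hb]
  push_cast
  rfl

/-- Transitivity of constituents. -/
theorem trans_ne {Y X W : Subgroup Γ} (hYX : Y ≤ X) (hXW : X ≤ W) {F : W → ℂ}
    (hF : IsCharacter W F) {i : X → ℂ} (hi : IsIrrCharacter X i) {β : Y → ℂ}
    (hβ : IsIrrCharacter Y β) (h1 : classInner (res hXW F) i ≠ 0)
    (h2 : classInner (res hYX i) β ≠ 0) : classInner (res (hYX.trans hXW) F) β ≠ 0 := by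
  obtain ⟨a, b, n, ha, hb, hn, hsum⟩ := exists_nat_sum hYX hXW hF hβ
  have h3 := ha ⟨i, hi⟩
  have h4 := hb ⟨i, hi⟩
  have ha0 : a ⟨i, hi⟩ ≠ 0 := by
    intro h
    rw [h] at h3
    exact h1 (by simpa using h3)
  have hb0 : b ⟨i, hi⟩ ≠ 0 := by
    intro h
    rw [h] at h4
    exact h2 (by simpa using h4)
  have h5 : a ⟨i, hi⟩ * b ⟨i, hi⟩ ≤ n := by
    rw [hsum]
    exact Finset.single_le_sum (f := fun i => a i * b i) (fun _ _ => Nat.zero_le _)
      (Finset.mem_univ _)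
  have h6 : 0 < a ⟨i, hi⟩ * b ⟨i, hi⟩ := Nat.mul_pos (Nat.pos_of_ne_zero ha0) (Nat.pos_of_ne_zero hb0)
  rw [hn]
  have : n ≠ 0 := by omega
  exact_mod_cast this

/-- The hypotheses of the Clifford correspondence. -/
structure RelCl (X T L : Subgroup Γ) (θ : L → ℂ) : Prop where
  LT : L ≤ T
  TX : T ≤ X
  Ln : ∀ g ∈ X, ∀ ℓ ∈ L, g * ℓ * g⁻¹ ∈ L
  hθ : IsIrrCharacter L θ
  hT : ∀ g ∈ X, (g ∈ T ↔ ∀ ℓ ℓ' : L, (ℓ' : Γ) = g * ℓ * g⁻¹ → θ ℓ' = θ ℓ)

variable {X T L : Subgroup Γ} {θ : L → ℂ}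

/-- The induced character. -/
theorem relCl_A (D : RelCl X T L θ) (ζ : IrrCharacter T)
    (hζ : classInner (res D.LT (ζ : T → ℂ)) θ ≠ 0) :
    ∃ χ : IrrCharacter X, classInner (res (D.LT.trans D.TX) (χ : X → ℂ)) θ =
        classInner (res D.LT (ζ : T → ℂ)) θ ∧
      ∀ χ' : IrrCharacter X, classInner (res D.TX (χ' : X → ℂ)) (ζ : T → ℂ) = if χ' = χ then 1 else 0 := by
  classical
  let N : Subgroup X := L.subgroupOf X
  haveI hN : N.Normal := ⟨fun n hn g => D.Ln g g.2 n hn⟩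
  let T₀ : Subgroup X := T.subgroupOf X
  letI : Fintype N := Fintype.ofFinite _
  letI : Fintype T₀ := Fintype.ofFinite _
  have hLX : L ≤ X := D.LT.trans D.TX
  let eN : N ≃* L := Subgroup.subgroupOfEquivOfLe hLX
  let eT : T₀ ≃* T := Subgroup.subgroupOfEquivOfLe D.TX
  let θ₀ : N → ℂ := θ ∘ eN
  let ζ₀ : T₀ → ℂ := (ζ : T → ℂ) ∘ eT
  have hθ₀ : IsIrrCharacter N θ₀ :=
    isIrrCharacter_comp_of_surjective eN.toMonoidHom eN.surjective D.hθ
  have hζ₀ : IsIrrCharacter T₀ ζ₀ :=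
    isIrrCharacter_comp_of_surjective eT.toMonoidHom eT.surjective ζ.2
  have hT₀ : ∀ g : X, g ∈ T₀ ↔ ∀ n : N, θ₀ ⟨g * n * g⁻¹, hN.conj_mem (n : X) n.2 g⟩ = θ₀ n := by
    intro g
    constructor
    · intro hg n
      exact (D.hT g g.2).mp hg (eN n) (eN ⟨g * n * g⁻¹, hN.conj_mem (n : X) n.2 g⟩) rfl
    · intro hg
      apply (D.hT g g.2).mpr
      intro ℓ ℓ' hℓ
      have h1 := hg (eN.symm ℓ)
      have h2 : eN ⟨g * (eN.symm ℓ) * g⁻¹, hN.conj_mem _ (eN.symm ℓ).2 g⟩ = ℓ' := by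
        apply Subtype.ext
        rw [hℓ]
        rfl
      have h3 : θ₀ ⟨g * (eN.symm ℓ) * g⁻¹, hN.conj_mem _ (eN.symm ℓ).2 g⟩ = θ ℓ' := by
        show θ (eN _) = _
        rw [h2]
      have h4 : θ₀ (eN.symm ℓ) = θ ℓ := by
        show θ (eN (eN.symm ℓ)) = _
        rw [MulEquiv.apply_symm_apply]
      rw [← h3, ← h4]
      exact h1
  have hHT : N ≤ T₀ := fun n hn => D.LT hn
  have hover : classInner (fun n : N => ζ₀ ⟨(n : X), hHT n.2⟩) θ₀ ≠ 0 := by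
    have h1 := classInner_comp_mulEquiv eN (res D.LT (ζ : T → ℂ)) θ
    have h2 : (res D.LT (ζ : T → ℂ)) ∘ eN = fun n : N => ζ₀ ⟨(n : X), hHT n.2⟩ := rfl
    rw [h2] at h1
    rw [h1]
    exact hζ
  obtain ⟨hI, hmul⟩ := indFun_irr_of_over N T₀ hθ₀ hT₀ hHT hζ₀ hover
  refine ⟨⟨indFun T₀ ζ₀, hI⟩, ?_, ?_⟩
  · have h1 := classInner_comp_mulEquiv eN (res D.LT (ζ : T → ℂ)) θ
    have h2 : (res D.LT (ζ : T → ℂ)) ∘ eN = fun n : N => ζ₀ ⟨(n : X), hHT n.2⟩ := rfl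
    rw [h2] at h1
    rw [← h1, ← hmul]
    exact (classInner_comp_mulEquiv eN (res hLX (indFun T₀ ζ₀)) θ).symm
  · intro χ'
    have h1 := classInner_comp_mulEquiv eT (res D.TX (χ' : X → ℂ)) (ζ : T → ℂ)
    have h2 : (res D.TX (χ' : X → ℂ)) ∘ eT = fun t : T₀ => (χ' : X → ℂ) t := rfl
    rw [h2] at h1
    rw [← h1]
    have hcl := isClassFunction_of_isCharacter (IsIrrCharacter.isCharacter χ'.2)
    have h3 := frobenius T₀ ζ₀ hcl
    have h4 := classInner_conj_symm (indFun T₀ ζ₀) (χ' : X → ℂ)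
    have h5 := classInner_conj_symm ζ₀ (fun t : T₀ => (χ' : X → ℂ) t)
    have h6 : classInner (fun t : T₀ => (χ' : X → ℂ) t) ζ₀ = classInner (χ' : X → ℂ) (indFun T₀ ζ₀) := by
      rw [← h4, ← h5, h3]
    show classInner (fun t : T₀ => (χ' : X → ℂ) t) ζ₀ = _
    rw [h6, classInner_irr χ'.2 hI]
    by_cases h7 : χ' = ⟨indFun T₀ ζ₀, hI⟩
    · rw [if_pos h7, if_pos (congrArg Subtype.val h7)]
    · rw [if_neg h7, if_neg (fun h => h7 (Subtype.ext h))]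

/-- Uniqueness of the constituent over `θ`. -/
theorem relCl_C (D : RelCl X T L θ) (χ : IrrCharacter X) (ζ ζ' : IrrCharacter T)
    (hζ : classInner (res D.LT (ζ : T → ℂ)) θ ≠ 0) (hζ' : classInner (res D.LT (ζ' : T → ℂ)) θ ≠ 0)
    (h : classInner (res D.TX (χ : X → ℂ)) (ζ : T → ℂ) ≠ 0)
    (h' : classInner (res D.TX (χ : X → ℂ)) (ζ' : T → ℂ) ≠ 0) : ζ = ζ' := by
  classical
  by_contra hne
  obtain ⟨χ₀, h1, h2⟩ := relCl_A D ζ hζ
  have h3 : χ = χ₀ := by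
    by_contra hc
    rw [h2 χ, if_neg hc] at h
    exact h rfl
  subst h3
  obtain ⟨a, b, n, ha, hb, hn, hsum⟩ := exists_nat_sum D.LT D.TX
    (IsIrrCharacter.isCharacter χ.2) D.hθ
  have e1 : n = b ζ := by
    have h4 := hb ζ
    rw [← h1, hn] at h4
    exact_mod_cast h4
  have ha0 : a ζ ≠ 0 := by
    intro h0
    have h4 := ha ζ
    rw [h0] at h4
    exact h (by simpa using h4)
  have ha1 : a ζ' ≠ 0 := by
    intro h0
    have h4 := ha ζ'
    rw [h0] at h4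
    exact h' (by simpa using h4)
  have hb0 : b ζ' ≠ 0 := by
    intro h0
    have h4 := hb ζ'
    rw [h0] at h4
    exact hζ' (by simpa using h4)
  have h5 : a ζ * b ζ + a ζ' * b ζ' ≤ n := by
    rw [hsum]
    have := Finset.sum_le_sum_of_subset (f := fun i => a i * b i)
      (Finset.subset_univ ({ζ, ζ'} : Finset (IrrCharacter T)))
    rwa [Finset.sum_pair hne] at this
  have h6 : 1 * b ζ ≤ a ζ * b ζ := Nat.mul_le_mul_right _ (Nat.pos_of_ne_zero ha0)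
  have h7 : 0 < a ζ' * b ζ' := Nat.mul_pos (Nat.pos_of_ne_zero ha1) (Nat.pos_of_ne_zero hb0)
  omega

/-- Existence of a constituent over `θ`. -/
theorem relCl_B (D : RelCl X T L θ) (χ : IrrCharacter X)
    (hχ : classInner (res (D.LT.trans D.TX) (χ : X → ℂ)) θ ≠ 0) :
    ∃ ζ : IrrCharacter T, classInner (res D.LT (ζ : T → ℂ)) θ ≠ 0 ∧
      classInner (res D.TX (χ : X → ℂ)) (ζ : T → ℂ) ≠ 0 := by
  by_contra hcon
  push Not at hcon
  apply hχ
  rw [sum_formula D.LT D.TX (IsIrrCharacter.isCharacter χ.2) θ]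
  apply Finset.sum_eq_zero
  intro ζ _
  by_cases h1 : classInner (res D.LT (ζ : T → ℂ)) θ = 0
  · rw [h1, mul_zero]
  · rw [hcon ζ h1, zero_mul]

/-- Invariance under the operators. -/
def SInv {X : Subgroup Γ} (S : Subgroup Γ) (f : X → ℂ) : Prop :=
  ∀ s ∈ S, ∀ g g' : X, (g' : Γ) = s * g * s⁻¹ → f g' = f g

variable {S : Subgroup Γ}

theorem twist_cl {Y X : Subgroup Γ} (h : Y ≤ X) (hX : ∀ s ∈ S, ∀ g ∈ X, s * g * s⁻¹ ∈ X)
    (hY : ∀ s ∈ S, ∀ g ∈ Y, s * g * s⁻¹ ∈ Y) (s : S) (f : X → ℂ) (β : Y → ℂ) :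
    classInner (res h (f ∘ conjHom X S hX s)) (β ∘ conjHom Y S hY s) = classInner (res h f) β := by
  have h1 := classInner_comp_mulEquiv (conjHom Y S hY s) (res h f) β
  exact h1

/-- Invariance goes down. -/
theorem inv_down (D : RelCl X T L θ) (hX : ∀ s ∈ S, ∀ g ∈ X, s * g * s⁻¹ ∈ X)
    (hT : ∀ s ∈ S, ∀ g ∈ T, s * g * s⁻¹ ∈ T) (hL : ∀ s ∈ S, ∀ g ∈ L, s * g * s⁻¹ ∈ L)
    (hθS : SInv S θ) (χ : IrrCharacter X) (hχ : SInv S (χ : X → ℂ)) (ζ : IrrCharacter T)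
    (hζ : classInner (res D.LT (ζ : T → ℂ)) θ ≠ 0)
    (h : classInner (res D.TX (χ : X → ℂ)) (ζ : T → ℂ) ≠ 0) : SInv S (ζ : T → ℂ) := by
  intro s hs g g' hg'
  let cT := conjHom T S hT ⟨s, hs⟩
  let cL := conjHom L S hL ⟨s, hs⟩
  let ζ' : IrrCharacter T := ⟨(ζ : T → ℂ) ∘ cT,
    isIrrCharacter_comp_of_surjective cT.toMonoidHom cT.surjective ζ.2⟩
  have hθc : θ ∘ cL = θ := by
    funext ℓ
    exact hθS s hs ℓ _ rfl
  have hov : classInner (res D.LT (ζ' : T → ℂ)) θ ≠ 0 := by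
    have h1 := twist_cl D.LT hT hL ⟨s, hs⟩ (ζ : T → ℂ) θ
    rw [hθc] at h1
    show classInner (res D.LT ((ζ : T → ℂ) ∘ cT)) θ ≠ 0
    rw [show classInner (res D.LT ((ζ : T → ℂ) ∘ cT)) θ = classInner (res D.LT (ζ : T → ℂ)) θ from h1]
    exact hζ
  have hχc : (res D.TX (χ : X → ℂ)) ∘ cT = res D.TX (χ : X → ℂ) := by
    funext t
    exact hχ s hs ⟨t, D.TX t.2⟩ ⟨s * t * s⁻¹, D.TX (hT s hs t t.2)⟩ rfl
  have hne : classInner (res D.TX (χ : X → ℂ)) (ζ' : T → ℂ) ≠ 0 := by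
    have h1 := classInner_comp_mulEquiv cT (res D.TX (χ : X → ℂ)) (ζ : T → ℂ)
    rw [hχc] at h1
    show classInner (res D.TX (χ : X → ℂ)) ((ζ : T → ℂ) ∘ cT) ≠ 0
    rw [h1]
    exact h
  have heq := relCl_C D χ ζ ζ' hζ hov h hne
  have h2 : (ζ' : T → ℂ) g = (ζ : T → ℂ) g' := by
    show (ζ : T → ℂ) (cT g) = _
    have h8 : cT g = g' := by
      apply Subtype.ext
      rw [hg']
      rfl
    rw [h8]
  rw [← h2, ← heq]

/-- Invariance goes up. -/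
theorem inv_up (D : RelCl X T L θ) (hX : ∀ s ∈ S, ∀ g ∈ X, s * g * s⁻¹ ∈ X)
    (hT : ∀ s ∈ S, ∀ g ∈ T, s * g * s⁻¹ ∈ T) (χ : IrrCharacter X) (ζ : IrrCharacter T)
    (hζ : classInner (res D.LT (ζ : T → ℂ)) θ ≠ 0) (hζS : SInv S (ζ : T → ℂ))
    (h : classInner (res D.TX (χ : X → ℂ)) (ζ : T → ℂ) ≠ 0) : SInv S (χ : X → ℂ) := by
  classical
  intro s hs g g' hg'
  let cX := conjHom X S hX ⟨s, hs⟩
  let cT := conjHom T S hT ⟨s, hs⟩
  let χ' : IrrCharacter X := ⟨(χ : X → ℂ) ∘ cX,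
    isIrrCharacter_comp_of_surjective cX.toMonoidHom cX.surjective χ.2⟩
  obtain ⟨χ₀, -, h2⟩ := relCl_A D ζ hζ
  have h3 : χ = χ₀ := by
    by_contra hc
    rw [h2 χ, if_neg hc] at h
    exact h rfl
  have hζc : (ζ : T → ℂ) ∘ cT = ζ := by
    funext t
    exact hζS s hs t _ rfl
  have h4 : classInner (res D.TX (χ' : X → ℂ)) (ζ : T → ℂ) ≠ 0 := by
    have h1 := twist_cl D.TX hX hT ⟨s, hs⟩ (χ : X → ℂ) (ζ : T → ℂ)
    rw [hζc] at h1
    show classInner (res D.TX ((χ : X → ℂ) ∘ cX)) (ζ : T → ℂ) ≠ 0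
    rw [h1]
    exact h
  have h5 : χ' = χ₀ := by
    by_contra hc
    rw [h2 χ', if_neg hc] at h4
    exact h4 rfl
  have h6 : χ' = χ := h5.trans h3.symm
  have h7 : (χ' : X → ℂ) g = (χ : X → ℂ) g' := by
    show (χ : X → ℂ) (cX g) = _
    have h8 : cX g = g' := by
      apply Subtype.ext
      rw [hg']
      rfl
    rw [h8]
  rw [← h7, h6]

/-- The multiplicity formula. -/
theorem mult_eq {G T H B : Subgroup Γ} {L : Subgroup Γ} {θ : L → ℂ} (DG : RelCl G T L θ)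
    (DH : RelCl H B L θ) (hBT : B ≤ T) (hHG : H ≤ G) (χ : IrrCharacter G) (ζ : IrrCharacter T)
    (ψ : IrrCharacter H) (ξ : IrrCharacter B)
    (hζ : classInner (res DG.LT (ζ : T → ℂ)) θ ≠ 0) (hξ : classInner (res DH.LT (ξ : B → ℂ)) θ ≠ 0)
    (h1 : classInner (res DG.TX (χ : G → ℂ)) (ζ : T → ℂ) ≠ 0)
    (h2 : classInner (res DH.TX (ψ : H → ℂ)) (ξ : B → ℂ) ≠ 0) :
    classInner (res hHG (χ : G → ℂ)) (ψ : H → ℂ) = classInner (res hBT (ζ : T → ℂ)) (ξ : B → ℂ) := by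
  classical
  have hχc := IsIrrCharacter.isCharacter χ.2
  have hBH : B ≤ H := DH.TX
  -- the first sum
  obtain ⟨ψ₀, -, hψ₀⟩ := relCl_A DH ξ hξ
  have e1 : ψ = ψ₀ := by
    by_contra hc
    rw [hψ₀ ψ, if_neg hc] at h2
    exact h2 rfl
  have s1 : classInner (res (hBH.trans hHG) (χ : G → ℂ)) (ξ : B → ℂ) =
      classInner (res hHG (χ : G → ℂ)) (ψ : H → ℂ) := by
    rw [sum_formula hBH hHG hχc, Finset.sum_eq_single ψ]
    · rw [hψ₀ ψ, if_pos e1, mul_one]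
    · intro b _ hb
      rw [hψ₀ b, if_neg (fun h => hb (h.trans e1.symm)), mul_zero]
    · intro h
      exact absurd (Finset.mem_univ _) h
  -- the second sum
  obtain ⟨χ₀, -, hχ₀⟩ := relCl_A DG ζ hζ
  have e2 : χ = χ₀ := by
    by_contra hc
    rw [hχ₀ χ, if_neg hc] at h1
    exact h1 rfl
  have s2 : classInner (res (hBT.trans DG.TX) (χ : G → ℂ)) (ξ : B → ℂ) =
      classInner (res hBT (ζ : T → ℂ)) (ξ : B → ℂ) := by
    rw [sum_formula hBT DG.TX hχc, Finset.sum_eq_single ζ]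
    · rw [hχ₀ χ, if_pos e2, one_mul]
    · intro z _ hz
      by_cases h3 : classInner (res DG.TX (χ : G → ℂ)) (z : T → ℂ) = 0
      · rw [h3, zero_mul]
      · have h4 : classInner (res hBT (z : T → ℂ)) (ξ : B → ℂ) = 0 := by
          by_contra h5
          have h6 := trans_ne DH.LT hBT (IsIrrCharacter.isCharacter z.2) ξ.2 DG.hθ h5 hξ
          exact hz (relCl_C DG χ z ζ h6 hζ h3 h1)
        rw [h4, mul_zero]
    · intro h
      exact absurd (Finset.mem_univ _) h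
  rw [← s1, ← s2]

end Rel

end Cfsg.Agent.Lib.IsaCliff
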