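import Mathlib
import Cfsg.Agent.Lib.IsaCliff

/-!
# The correspondence in the ambient form
-/

set_option autoImplicit false
set_option linter.unusedVariables false
set_option linter.unusedSectionVars false
set_option linter.style.haveILetI false

namespace Cfsg.Agent.Lib.IsaCliff

open Cfsg Cfsg.Agent.Lib.CharBasic Cfsg.Agent.Lib.CharInd Cfsg.Agent.Lib.CharInduction
open Cfsg.Agent.Lib.Clifford Cfsg.Agent.Lib.CharClifford Cfsg.Agent.Lib.GlaubCorr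
open Cfsg.Agent.Lib.IsaCover
open scoped ComplexConjugate

universe u

section Main

variable {Γ : Type u} [Group Γ] [Finite Γ] [fX : ∀ X : Subgroup Γ, Fintype X]

/-- The ambient hypotheses. -/
structure ASetup (G S L A H : Subgroup Γ) : Prop where
  hnorm : ∀ s ∈ S, ∀ g ∈ G, s * g * s⁻¹ ∈ G
  cop : (Nat.card G).Coprime (Nat.card S)
  odd : Odd (Nat.card G)
  solv : Group.IsSolvable G
  LA : L ≤ A
  LH : L ≤ H
  AG : A ≤ G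
  HG : H ≤ G
  Ln : ∀ g ∈ G, ∀ ℓ ∈ L, g * ℓ * g⁻¹ ∈ L
  An : ∀ g ∈ G, ∀ x ∈ A, g * x * g⁻¹ ∈ A
  LS : ∀ s ∈ S, ∀ ℓ ∈ L, s * ℓ * s⁻¹ ∈ L
  AS : ∀ s ∈ S, ∀ x ∈ A, s * x * s⁻¹ ∈ A
  comm : ∀ x ∈ A, ∀ y ∈ A, x * y * x⁻¹ * y⁻¹ ∈ L
  gen : ∀ g ∈ G, ∃ x ∈ A, ∃ y ∈ H, g = x * y
  int : ∀ x ∈ A, x ∈ H → x ∈ L
  fpf : ∀ x ∈ A, (∀ s ∈ S, x⁻¹ * (s * x * s⁻¹) ∈ L) → x ∈ L
  Hfix : ∀ y ∈ H, ∃ ℓ ∈ L, ∃ u ∈ H, (∀ s ∈ S, s * u * s⁻¹ = u) ∧ y = ℓ * u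
  fixH : ∀ g ∈ G, (∀ s ∈ S, s * g * s⁻¹ = g) → g ∈ H

variable {G S L A H : Subgroup Γ}

set_option maxHeartbeats 1000000 in
/-- **Theorem Y**, ambient form. -/
theorem thmY_ambient (D : ASetup G S L A H) {θ : L → ℂ} (hθ : IsIrrCharacter L θ)
    (hθG : ∀ g ∈ G, ∀ ℓ ℓ' : L, (ℓ' : Γ) = g * ℓ * g⁻¹ → θ ℓ' = θ ℓ) (hθS : SInv S θ) :
    (∀ χ : IrrCharacter G, SInv S (χ : G → ℂ) →
      classInner (res (D.LH.trans D.HG) (χ : G → ℂ)) θ ≠ 0 →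
      ∃ ψ : IrrCharacter H, classInner (res D.LH (ψ : H → ℂ)) θ ≠ 0 ∧
        (∃ m : ℕ, classInner (res D.HG (χ : G → ℂ)) (ψ : H → ℂ) = m ∧ Odd m) ∧
        ∀ ψ' : IrrCharacter H, classInner (res D.LH (ψ' : H → ℂ)) θ ≠ 0 →
          ∀ m' : ℕ, classInner (res D.HG (χ : G → ℂ)) (ψ' : H → ℂ) = m' → Odd m' → ψ' = ψ) ∧
    (∀ χ χ' : IrrCharacter G, SInv S (χ : G → ℂ) →
      classInner (res (D.LH.trans D.HG) (χ : G → ℂ)) θ ≠ 0 → SInv S (χ' : G → ℂ) →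
      classInner (res (D.LH.trans D.HG) (χ' : G → ℂ)) θ ≠ 0 →
      ∀ ψ : IrrCharacter H, classInner (res D.LH (ψ : H → ℂ)) θ ≠ 0 →
      ∀ m m' : ℕ, classInner (res D.HG (χ : G → ℂ)) (ψ : H → ℂ) = m → Odd m →
        classInner (res D.HG (χ' : G → ℂ)) (ψ : H → ℂ) = m' → Odd m' → χ = χ') ∧
    (∀ ψ : IrrCharacter H, classInner (res D.LH (ψ : H → ℂ)) θ ≠ 0 →
      ∃ χ : IrrCharacter G, SInv S (χ : G → ℂ) ∧
        classInner (res (D.LH.trans D.HG) (χ : G → ℂ)) θ ≠ 0 ∧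
        ∃ m : ℕ, classInner (res D.HG (χ : G → ℂ)) (ψ : H → ℂ) = m ∧ Odd m) ∧
    (∀ ψ : IrrCharacter H, classInner (res D.LH (ψ : H → ℂ)) θ ≠ 0 → SInv S (ψ : H → ℂ)) := by
  obtain ⟨d, ρ, hρ, rfl⟩ := hθ
  have hLG : L ≤ G := D.LH.trans D.HG
  let c : G →* MulAut L := conjHom L G D.Ln
  let a₀ : S →* MulAut G := conjHom G S D.hnorm
  let b₀ : S →* MulAut L := conjHom L S D.LS
  let j : L →* G := Subgroup.inclusion hLG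
  have hCD : CovData c j a₀ b₀ ρ :=
    { cj := fun ℓ x => Subtype.ext rfl
      jc := fun g ℓ => Subtype.ext rfl
      jinj := Subgroup.inclusion_injective hLG
      bc := fun s g ℓ => Subtype.ext (by
        show (s : Γ) * (g * ℓ * (g : Γ)⁻¹) * (s : Γ)⁻¹ =
          ((s : Γ) * g * (s : Γ)⁻¹) * ((s : Γ) * ℓ * (s : Γ)⁻¹) * ((s : Γ) * g * (s : Γ)⁻¹)⁻¹
        group)
      bj := fun s ℓ => Subtype.ext rfl
      irr := hρ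
      invG := fun g ℓ => hθG g g.2 ℓ _ rfl
      invS := fun s ℓ => hθS s s.2 ℓ _ rfl }
  have hrange : ∀ x : G, (x : Γ) ∈ L → x ∈ j.range := fun x hx => ⟨⟨x, hx⟩, Subtype.ext rfl⟩
  have hrange' : ∀ x : G, x ∈ j.range → (x : Γ) ∈ L := by
    rintro x ⟨ℓ, rfl⟩
    exact ℓ.2
  have hYD : YData a₀ j (A.subgroupOf G) (H.subgroupOf G) :=
    { odd := D.odd
      cop := D.cop
      LA := fun x hx => D.LA (hrange' x hx)
      LH := fun x hx => D.LH (hrange' x hx)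
      Anorm := fun g x hx => D.An g g.2 x hx
      Ainv := fun s x hx => D.AS s s.2 x hx
      comm := fun x hx y hy => hrange _ (D.comm x hx y hy)
      gen := fun g => by
        obtain ⟨x, hx, y, hy, hxy⟩ := D.gen g g.2
        exact ⟨⟨x, D.AG hx⟩, hx, ⟨y, D.HG hy⟩, hy, Subtype.ext hxy⟩
      int := fun x hx hy => hrange _ (D.int x hx hy)
      fpf := fun x hx hs => hrange _ (D.fpf x hx (fun s hsS => hrange' _ (hs ⟨s, hsS⟩)))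
      Hfix := fun y hy => by
        obtain ⟨ℓ, hℓ, u, hu, hfix, hyu⟩ := D.Hfix y hy
        exact ⟨⟨ℓ, hℓ⟩, ⟨u, D.HG hu⟩, hu, fun s => Subtype.ext (hfix s s.2), Subtype.ext hyu⟩ }
  let e : H ≃* H.subgroupOf G := (Subgroup.subgroupOfEquivOfLe D.HG).symm
  let jH : L → H := fun ℓ => ⟨ℓ, D.LH ℓ.2⟩
  obtain ⟨y1, y2, y3, y4⟩ := thmY (S := S) hCD hYD e jH (fun ℓ => rfl)
  have hSi : ∀ χ : IrrCharacter G, SInv S (χ : G → ℂ) →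
      ∀ s g, (χ : G → ℂ) (a₀ s g) = (χ : G → ℂ) g := fun χ h s g => h s s.2 g _ rfl
  have hSi' : ∀ χ : IrrCharacter G, (∀ s g, (χ : G → ℂ) (a₀ s g) = (χ : G → ℂ) g) →
      SInv S (χ : G → ℂ) := by
    intro χ h s hs g g' hg'
    have h1 : g' = a₀ ⟨s, hs⟩ g := Subtype.ext hg'
    rw [h1]
    exact h _ _
  refine ⟨?_, ?_, ?_, ?_⟩
  · intro χ hχ hov
    exact y1 χ (hSi χ hχ) hov
  · intro χ χ' hχ hov hχ' hov'
    exact y2 χ χ' (hSi χ hχ) hov (hSi χ' hχ') hov'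
  · intro ψ hψ
    obtain ⟨χ, h1, h2, h3⟩ := y3 ψ hψ
    exact ⟨χ, hSi' χ h1, h2, h3⟩
  · intro ψ hψ s hs g g' hg'
    exact y4 ψ hψ ⟨s, hs⟩ g g' (Subtype.ext hg')

/-- The inertia group. -/
def inertia (G L : Subgroup Γ) (θ : L → ℂ) (hLn : ∀ g ∈ G, ∀ ℓ ∈ L, g * ℓ * g⁻¹ ∈ L) :
    Subgroup Γ where
  carrier := {g | g ∈ G ∧ ∀ ℓ ℓ' : L, (ℓ' : Γ) = g * ℓ * g⁻¹ → θ ℓ' = θ ℓ}
  one_mem' := ⟨G.one_mem, fun ℓ ℓ' h => by
    congr 1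
    apply Subtype.ext
    rw [h]
    simp⟩
  mul_mem' := by
    rintro a b ⟨ha, ha'⟩ ⟨hb, hb'⟩
    refine ⟨G.mul_mem ha hb, fun ℓ ℓ' h => ?_⟩
    let ℓ₁ : L := ⟨b * ℓ * b⁻¹, hLn b hb ℓ ℓ.2⟩
    rw [ha' ℓ₁ ℓ' (by rw [h]; show _ = a * (b * ℓ * b⁻¹) * a⁻¹; group), hb' ℓ ℓ₁ rfl]
  inv_mem' := by
    rintro a ⟨ha, ha'⟩
    refine ⟨G.inv_mem ha, fun ℓ ℓ' h => ?_⟩
    refine (ha' ℓ' ℓ ?_).symm
    rw [h]
    group

theorem mem_inertia {θ : L → ℂ} {hLn : ∀ g ∈ G, ∀ ℓ ∈ L, g * ℓ * g⁻¹ ∈ L} {g : Γ} :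
    g ∈ inertia G L θ hLn ↔ g ∈ G ∧ ∀ ℓ ℓ' : L, (ℓ' : Γ) = g * ℓ * g⁻¹ → θ ℓ' = θ ℓ := Iff.rfl

/-- `H` is `S`-invariant. -/
theorem ASetup.Hinv (D : ASetup G S L A H) : ∀ s ∈ S, ∀ y ∈ H, s * y * s⁻¹ ∈ H := by
  intro s hs y hy
  obtain ⟨ℓ, hℓ, u, hu, hfix, rfl⟩ := D.Hfix y hy
  have h1 : s * (ℓ * u) * s⁻¹ = (s * ℓ * s⁻¹) * (s * u * s⁻¹) := by group
  rw [h1, hfix s hs]
  exact H.mul_mem (D.LH (D.LS s hs ℓ hℓ)) hu

theorem solvable_of_le {X Y : Subgroup Γ} (h : X ≤ Y) (hY : Group.IsSolvable Y) :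
    Group.IsSolvable X :=
  Group.isSolvable_of_isSolvable_injective (f := Subgroup.inclusion h)
    (Subgroup.inclusion_injective h)

/-- The setup passes to the inertia group. -/
theorem setupT (D : ASetup G S L A H) {θ : L → ℂ} (hθ : IsIrrCharacter L θ) (hθS : SInv S θ) :
    let T := inertia G L θ D.Ln
    RelCl G T L θ ∧ RelCl H (H ⊓ T) L θ ∧ ASetup T S L (A ⊓ T) (H ⊓ T) ∧
      (∀ s ∈ S, ∀ t ∈ T, s * t * s⁻¹ ∈ T) ∧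
      (∀ g ∈ T, ∀ ℓ ℓ' : L, (ℓ' : Γ) = g * ℓ * g⁻¹ → θ ℓ' = θ ℓ) := by
  intro T
  have hLG : L ≤ G := D.LH.trans D.HG
  have hθcl := isClassFunction_of_isCharacter (IsIrrCharacter.isCharacter hθ)
  have hLT : L ≤ T := by
    intro x hx
    refine ⟨hLG hx, fun ℓ ℓ' h => ?_⟩
    have h1 : ℓ' = ⟨x, hx⟩ * ℓ * (⟨x, hx⟩ : L)⁻¹ := Subtype.ext h
    rw [h1]
    exact hθcl _ _
  have hTG : T ≤ G := fun g hg => hg.1
  have hTS : ∀ s ∈ S, ∀ t ∈ T, s * t * s⁻¹ ∈ T := by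
    intro s hs t ht
    refine ⟨D.hnorm s hs t ht.1, fun ℓ ℓ' h => ?_⟩
    let ℓ₁ : L := ⟨s⁻¹ * ℓ * s, by
      have := D.LS s⁻¹ (S.inv_mem hs) ℓ ℓ.2
      simpa using this⟩
    let ℓ₂ : L := ⟨t * ℓ₁ * t⁻¹, D.Ln t ht.1 ℓ₁ ℓ₁.2⟩
    have h1 : θ ℓ' = θ ℓ₂ := hθS s hs ℓ₂ ℓ' (by
      rw [h]
      show _ = s * (t * (s⁻¹ * ℓ * s) * t⁻¹) * s⁻¹
      group)
    have h2 : θ ℓ₂ = θ ℓ₁ := ht.2 ℓ₁ ℓ₂ rfl
    have h3 : θ ℓ = θ ℓ₁ := hθS s hs ℓ₁ ℓ (by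
      show (ℓ : Γ) = s * (s⁻¹ * ℓ * s) * s⁻¹
      group)
    rw [h1, h2, h3]
  have hsolT : Group.IsSolvable T := solvable_of_le hTG D.solv
  refine ⟨⟨hLT, hTG, D.Ln, hθ, fun g hg => ⟨fun h => h.2, fun h => ⟨hg, h⟩⟩⟩,
    ⟨le_inf D.LH hLT, inf_le_left, fun g hg => D.Ln g (D.HG hg), hθ,
      fun g hg => ⟨fun h => h.2.2, fun h => ⟨hg, D.HG hg, h⟩⟩⟩, ?_, hTS, fun g hg => hg.2⟩
  have hcT : (Nat.card T).Coprime (Nat.card S) :=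
    Nat.Coprime.coprime_dvd_left (Subgroup.card_dvd_of_le hTG) D.cop
  exact
    { hnorm := hTS
      cop := hcT
      odd := Odd.of_dvd_nat D.odd (Subgroup.card_dvd_of_le hTG)
      solv := hsolT
      LA := le_inf D.LA hLT
      LH := le_inf D.LH hLT
      AG := inf_le_right
      HG := inf_le_right
      Ln := fun g hg => D.Ln g hg.1
      An := fun g hg x hx => ⟨D.An g hg.1 x hx.1, T.mul_mem (T.mul_mem hg hx.2) (T.inv_mem hg)⟩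
      LS := D.LS
      AS := fun s hs x hx => ⟨D.AS s hs x hx.1, hTS s hs x hx.2⟩
      comm := fun x hx y hy => D.comm x hx.1 y hy.1
      gen := by
        intro t ht
        obtain ⟨x, hx, y, hy, hxy⟩ := D.gen t ht.1
        obtain ⟨ℓ, hℓ, u, hu, hfix, hyu⟩ := D.Hfix y hy
        have htform : t = (x * ℓ) * u := by
          rw [hxy, hyu, mul_assoc]
        have hxℓ : x * ℓ ∈ A := A.mul_mem hx (D.LA hℓ)
        have hsA : ∀ s ∈ S, t⁻¹ * (s * t * s⁻¹) ∈ A ⊓ T := by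
          intro s hs
          refine ⟨?_, T.mul_mem (T.inv_mem ht) (hTS s hs t ht)⟩
          have h1 : s * t * s⁻¹ = (s * (x * ℓ) * s⁻¹) * u := by
            rw [htform]
            have := hfix s hs
            calc s * (x * ℓ * u) * s⁻¹ = (s * (x * ℓ) * s⁻¹) * (s * u * s⁻¹) := by group
              _ = _ := by rw [this]
          have h2 : t⁻¹ * (s * t * s⁻¹) =
              u⁻¹ * ((x * ℓ)⁻¹ * (s * (x * ℓ) * s⁻¹)) * (u⁻¹)⁻¹ := by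
            rw [h1]
            conv_lhs => rw [htform]
            group
          rw [h2]
          exact D.An u⁻¹ (G.inv_mem (D.HG hu)) _
            (A.mul_mem (A.inv_mem hxℓ) (D.AS s hs _ hxℓ))
        obtain ⟨n, hn, hfixn⟩ := coset_fix (G := G) (S := S) (T := A ⊓ T)
          (solvable_of_le (inf_le_right.trans hTG) D.solv) (inf_le_right.trans hTG) D.hnorm
          (fun s hs x hx => ⟨D.AS s hs x hx.1, hTS s hs x hx.2⟩) D.cop ht.1 hsA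
        have htn : t * n ∈ T := T.mul_mem ht hn.2
        refine ⟨(t * n) * n⁻¹ * (t * n)⁻¹, ⟨?_, ?_⟩, t * n,
          ⟨D.fixH _ htn.1 hfixn, htn⟩, by group⟩
        · exact D.An _ htn.1 _ (A.inv_mem hn.1)
        · exact T.mul_mem (T.mul_mem htn (T.inv_mem hn.2)) (T.inv_mem htn)
      int := fun x hx hy => D.int x hx.1 hy.1
      fpf := fun x hx hs => D.fpf x hx.1 hs
      Hfix := by
        intro y hy
        obtain ⟨ℓ, hℓ, u, hu, hfix, hyu⟩ := D.Hfix y hy.1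
        refine ⟨ℓ, hℓ, u, ⟨hu, ?_⟩, hfix, hyu⟩
        have h1 : u = ℓ⁻¹ * y := by
          rw [hyu]
          group
        rw [h1]
        exact T.mul_mem (T.inv_mem (hLT hℓ)) hy.2
      fixH := fun g hg hfix => ⟨D.fixH g hg.1 hfix, hg⟩ }

/-- Conjugate constituents: `c ∈ C_G(S)` moves one into the other. -/
theorem conj_fix (D : ASetup G S L A H) (χ : IrrCharacter G) {θ θ' : L → ℂ}
    (hθ : IsIrrCharacter L θ) (hθ' : IsIrrCharacter L θ') (hθS : SInv S θ) (hθ'S : SInv S θ')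
    (hov : classInner (res (D.LH.trans D.HG) (χ : G → ℂ)) θ ≠ 0)
    (hov' : classInner (res (D.LH.trans D.HG) (χ : G → ℂ)) θ' ≠ 0)
    (ψ : IrrCharacter H) (hψ : classInner (res D.LH (ψ : H → ℂ)) θ' ≠ 0) :
    classInner (res D.LH (ψ : H → ℂ)) θ ≠ 0 := by
  classical
  have hLG : L ≤ G := D.LH.trans D.HG
  let N : Subgroup G := L.subgroupOf G
  haveI hN : N.Normal := ⟨fun n hn g => D.Ln g g.2 n hn⟩
  letI : Fintype N := Fintype.ofFinite _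
  let eN : N ≃* L := Subgroup.subgroupOfEquivOfLe hLG
  have hθ₀ : IsIrrCharacter N (θ ∘ eN) :=
    isIrrCharacter_comp_of_surjective eN.toMonoidHom eN.surjective hθ
  have hθ₀' : IsIrrCharacter N (θ' ∘ eN) :=
    isIrrCharacter_comp_of_surjective eN.toMonoidHom eN.surjective hθ'
  have hres : (res hLG (χ : G → ℂ)) ∘ eN = fun n : N => (χ : G → ℂ) n := rfl
  have h1 : classInner (fun n : N => (χ : G → ℂ) n) (θ ∘ eN) ≠ 0 := by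
    rw [← hres, classInner_comp_mulEquiv]
    exact hov
  have h2 : classInner (fun n : N => (χ : G → ℂ) n) (θ' ∘ eN) ≠ 0 := by
    rw [← hres, classInner_comp_mulEquiv]
    exact hov'
  obtain ⟨g, hg⟩ := exists_conj_of_constituents N hN χ.2 hθ₀ hθ₀' h1 h2
  have hgL : ∀ ℓ : L, (g : Γ) * ℓ * (g : Γ)⁻¹ ∈ L := fun ℓ => D.Ln g g.2 ℓ ℓ.2
  have hθθ' : ∀ ℓ : L, θ' ℓ = θ ⟨(g : Γ) * ℓ * (g : Γ)⁻¹, hgL ℓ⟩ := by
    intro ℓ
    have h3 := congrFun hg (eN.symm ℓ)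
    simp only [Function.comp_apply, MulEquiv.apply_symm_apply] at h3
    rw [h3, conjBy_apply]
    rfl
  let T := inertia G L θ D.Ln
  have hTG : T ≤ G := fun g hg => hg.1
  have hTS : ∀ s ∈ S, ∀ t ∈ T, s * t * s⁻¹ ∈ T := (setupT D hθ hθS).2.2.2.1
  have hst : ∀ s ∈ S, (g : Γ)⁻¹⁻¹ * (s * (g : Γ)⁻¹ * s⁻¹) ∈ T := by
    intro s hs
    rw [inv_inv]
    refine ⟨G.mul_mem g.2 (D.hnorm s hs _ (G.inv_mem g.2)), fun ℓ ℓ' h => ?_⟩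
    -- the element `x = s (g⁻¹ (s⁻¹ ℓ s) g) s⁻¹`
    let ℓ₁ : L := ⟨s⁻¹ * ℓ * s, by
      have := D.LS s⁻¹ (S.inv_mem hs) ℓ ℓ.2
      simpa using this⟩
    let ℓ₂ : L := ⟨(g : Γ)⁻¹ * ℓ₁ * g, by
      have := D.Ln _ (G.inv_mem g.2) ℓ₁ ℓ₁.2
      simpa using this⟩
    let x : L := ⟨s * ℓ₂ * s⁻¹, D.LS s hs ℓ₂ ℓ₂.2⟩
    have e1 : θ ℓ' = θ' x := by
      rw [hθθ' x]
      congr 1
      apply Subtype.ext
      rw [h]
      show _ = (g : Γ) * (s * ((g : Γ)⁻¹ * (s⁻¹ * ℓ * s) * g) * s⁻¹) * (g : Γ)⁻¹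
      group
    have e2 : θ' x = θ' ℓ₂ := hθ'S s hs ℓ₂ x rfl
    have e3 : θ' ℓ₂ = θ ℓ₁ := by
      rw [hθθ' ℓ₂]
      congr 1
      apply Subtype.ext
      show (g : Γ) * ((g : Γ)⁻¹ * ℓ₁ * g) * (g : Γ)⁻¹ = ℓ₁
      group
    have e4 : θ ℓ = θ ℓ₁ := hθS s hs ℓ₁ ℓ (by
      show (ℓ : Γ) = s * (s⁻¹ * ℓ * s) * s⁻¹
      group)
    rw [e1, e2, e3, e4]
  obtain ⟨t, ht, hfix⟩ := coset_fix (G := G) (S := S) (T := T) (solvable_of_le hTG D.solv) hTG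
    D.hnorm hTS D.cop (G.inv_mem g.2) hst
  set u := (g : Γ)⁻¹ * t with hu
  have huG : u ∈ G := G.mul_mem (G.inv_mem g.2) (hTG ht)
  have huH : u ∈ H := D.fixH u huG hfix
  let κ : MulAut L := conjHom L G D.Ln ⟨u⁻¹, G.inv_mem huG⟩
  have hκ : ∀ ℓ : L, ((κ ℓ : L) : Γ) = u⁻¹ * ℓ * (u⁻¹)⁻¹ := fun ℓ => rfl
  have hθκ : θ' = θ ∘ κ := by
    funext ℓ
    rw [hθθ' ℓ]
    have h3 : (κ ℓ : Γ) = t⁻¹ * ((g : Γ) * ℓ * (g : Γ)⁻¹) * (t⁻¹)⁻¹ := by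
      rw [hκ, hu]
      group
    exact ((T.inv_mem ht).2 ⟨(g : Γ) * ℓ * (g : Γ)⁻¹, hgL ℓ⟩ (κ ℓ) h3).symm
  have hψκ : (res D.LH (ψ : H → ℂ)) ∘ κ = res D.LH (ψ : H → ℂ) := by
    funext ℓ
    have hcl := isClassFunction_of_isCharacter (IsIrrCharacter.isCharacter ψ.2)
    exact hcl ⟨ℓ, D.LH ℓ.2⟩ ⟨u⁻¹, H.inv_mem huH⟩
  rw [hθκ, ← hψκ, classInner_comp_mulEquiv κ] at hψ
  exact hψ

/-- **The correspondence**, ambient form. -/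
theorem main_ambient (D : ASetup G S L A H) :
    (∀ χ : IrrCharacter G, SInv S (χ : G → ℂ) → ∃! ψ : IrrCharacter H, SInv S (ψ : H → ℂ) ∧
      ∃ m : ℕ, classInner (res D.HG (χ : G → ℂ)) (ψ : H → ℂ) = m ∧ Odd m) ∧
    (∀ χ χ' : IrrCharacter G, SInv S (χ : G → ℂ) → SInv S (χ' : G → ℂ) →
      ∀ ψ : IrrCharacter H, SInv S (ψ : H → ℂ) → ∀ m m' : ℕ,
        classInner (res D.HG (χ : G → ℂ)) (ψ : H → ℂ) = m → Odd m →
        classInner (res D.HG (χ' : G → ℂ)) (ψ : H → ℂ) = m' → Odd m' → χ = χ') ∧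
    (∀ ψ : IrrCharacter H, SInv S (ψ : H → ℂ) → ∃ χ : IrrCharacter G, SInv S (χ : G → ℂ) ∧
      ∃ m : ℕ, classInner (res D.HG (χ : G → ℂ)) (ψ : H → ℂ) = m ∧ Odd m) := by
  classical
  letI : Fintype Γ := Fintype.ofFinite _
  have hLG : L ≤ G := D.LH.trans D.HG
  have hsolvH : Group.IsSolvable H := solvable_of_le D.HG D.solv
  have hcopH : (Nat.card H).Coprime (Nat.card S) :=
    Nat.Coprime.coprime_dvd_left (Subgroup.card_dvd_of_le D.HG) D.cop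
  haveI hNG : (L.subgroupOf G).Normal := ⟨fun n hn g => D.Ln g g.2 n hn⟩
  haveI hNH : (L.subgroupOf H).Normal := ⟨fun n hn g => D.Ln g (D.HG g.2) n hn⟩
  have exG : ∀ χ : IrrCharacter G, SInv S (χ : G → ℂ) → ∃ θ : IrrCharacter L,
      classInner (res hLG (χ : G → ℂ)) (θ : L → ℂ) ≠ 0 ∧ SInv S (θ : L → ℂ) := fun χ hχ =>
    Cfsg.Agent.S4447.result G S L D.hnorm hLG D.LS
      (Nat.Coprime.coprime_dvd_left (Subgroup.index_dvd_card _) D.cop)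
      (Or.inr (by
        haveI := D.solv
        infer_instance)) χ hχ
  have exH : ∀ ψ : IrrCharacter H, SInv S (ψ : H → ℂ) → ∃ θ : IrrCharacter L,
      classInner (res D.LH (ψ : H → ℂ)) (θ : L → ℂ) ≠ 0 ∧ SInv S (θ : L → ℂ) := fun ψ hψ =>
    Cfsg.Agent.S4447.result H S L D.Hinv D.LH D.LS
      (Nat.Coprime.coprime_dvd_left (Subgroup.index_dvd_card _) hcopH)
      (Or.inr (by
        haveI := hsolvH
        infer_instance)) ψ hψ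
  have hne : ∀ m : ℕ, Odd m → (m : ℂ) ≠ 0 := by
    intro m hm
    have : m ≠ 0 := by
      rintro rfl
      simp at hm
    exact_mod_cast this
  refine ⟨?_, ?_, ?_⟩
  · intro χ hχ
    obtain ⟨θ, hov, hθS⟩ := exG χ hχ
    obtain ⟨DG, DH, DT, hTS, hTθ⟩ := setupT D θ.2 hθS
    set T := inertia G L (θ : L → ℂ) D.Ln
    obtain ⟨y1, y2, y3, y4⟩ := thmY_ambient DT θ.2 hTθ hθS
    obtain ⟨ζ, hζ, hχζ⟩ := relCl_B DG χ hov
    have hζS := inv_down DG D.hnorm hTS D.LS hθS χ hχ ζ hζ hχζ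
    obtain ⟨ξ, hξ, ⟨m, hm, hodd⟩, huniq⟩ := y1 ζ hζS hζ
    have hξS := y4 ξ hξ
    obtain ⟨ψ, -, hψ⟩ := relCl_A DH ξ hξ
    have hψξ : classInner (res DH.TX (ψ : H → ℂ)) (ξ : (H ⊓ T : Subgroup Γ) → ℂ) ≠ 0 := by
      rw [hψ ψ, if_pos rfl]
      exact one_ne_zero
    have hψS := inv_up DH D.Hinv DT.Hinv ψ ξ hξ hξS hψξ
    have hmult := mult_eq DG DH inf_le_right D.HG χ ζ ψ ξ hζ hξ hχζ hψξ
    refine ⟨ψ, ⟨hψS, m, by rw [hmult]; exact hm, hodd⟩, ?_⟩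
    rintro ψ' ⟨hψ'S, m', hm', hodd'⟩
    obtain ⟨θ', hov', hθ'S⟩ := exH ψ' hψ'S
    have hχθ' := trans_ne D.LH D.HG (IsIrrCharacter.isCharacter χ.2) ψ'.2 θ'.2
      (by rw [hm']; exact hne m' hodd') hov'
    have hψ'θ := conj_fix D χ θ.2 θ'.2 hθS hθ'S hov hχθ' ψ' hov'
    obtain ⟨ξ', hξ', hψ'ξ'⟩ := relCl_B DH ψ' hψ'θ
    have hmult' := mult_eq DG DH inf_le_right D.HG χ ζ ψ' ξ' hζ hξ' hχζ hψ'ξ'
    have h1 := huniq ξ' hξ' m' (by rw [← hmult']; exact hm') hodd'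
    subst h1
    by_contra hc
    rw [hψ ψ', if_neg hc] at hψ'ξ'
    exact hψ'ξ' rfl
  · intro χ χ' hχ hχ' ψ hψS m m' hm hodd hm' hodd'
    obtain ⟨θ, hov, hθS⟩ := exH ψ hψS
    obtain ⟨DG, DH, DT, hTS, hTθ⟩ := setupT D θ.2 hθS
    set T := inertia G L (θ : L → ℂ) D.Ln
    obtain ⟨y1, y2, y3, y4⟩ := thmY_ambient DT θ.2 hTθ hθS
    have hχθ := trans_ne D.LH D.HG (IsIrrCharacter.isCharacter χ.2) ψ.2 θ.2
      (by rw [hm]; exact hne m hodd) hov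
    have hχ'θ := trans_ne D.LH D.HG (IsIrrCharacter.isCharacter χ'.2) ψ.2 θ.2
      (by rw [hm']; exact hne m' hodd') hov
    obtain ⟨ζ, hζ, hχζ⟩ := relCl_B DG χ hχθ
    obtain ⟨ζ', hζ', hχζ'⟩ := relCl_B DG χ' hχ'θ
    have hζS := inv_down DG D.hnorm hTS D.LS hθS χ hχ ζ hζ hχζ
    have hζ'S := inv_down DG D.hnorm hTS D.LS hθS χ' hχ' ζ' hζ' hχζ'
    obtain ⟨ξ, hξ, hψξ⟩ := relCl_B DH ψ hov
    have h1 := mult_eq DG DH inf_le_right D.HG χ ζ ψ ξ hζ hξ hχζ hψξ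
    have h2 := mult_eq DG DH inf_le_right D.HG χ' ζ' ψ ξ hζ' hξ hχζ' hψξ
    have h3 := y2 ζ ζ' hζS hζ hζ'S hζ' ξ hξ m m' (by rw [← h1]; exact hm) hodd
      (by rw [← h2]; exact hm') hodd'
    subst h3
    obtain ⟨χ₀, -, h4⟩ := relCl_A DG ζ hζ
    have h5 : χ = χ₀ := by
      by_contra hc
      rw [h4 χ, if_neg hc] at hχζ
      exact hχζ rfl
    have h6 : χ' = χ₀ := by
      by_contra hc
      rw [h4 χ', if_neg hc] at hχζ'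
      exact hχζ' rfl
    rw [h5, h6]
  · intro ψ hψS
    obtain ⟨θ, hov, hθS⟩ := exH ψ hψS
    obtain ⟨DG, DH, DT, hTS, hTθ⟩ := setupT D θ.2 hθS
    set T := inertia G L (θ : L → ℂ) D.Ln
    obtain ⟨y1, y2, y3, y4⟩ := thmY_ambient DT θ.2 hTθ hθS
    obtain ⟨ξ, hξ, hψξ⟩ := relCl_B DH ψ hov
    obtain ⟨ζ, hζS, hζ, m, hm, hodd⟩ := y3 ξ hξ
    obtain ⟨χ, -, hχ⟩ := relCl_A DG ζ hζ
    have hχζ : classInner (res DG.TX (χ : G → ℂ)) (ζ : T → ℂ) ≠ 0 := by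
      rw [hχ χ, if_pos rfl]
      exact one_ne_zero
    have hχS := inv_up DG D.hnorm hTS χ ζ hζ hζS hχζ
    have hmult := mult_eq DG DH inf_le_right D.HG χ ζ ψ ξ hζ hξ hχζ hψξ
    exact ⟨χ, hχS, m, by rw [hmult]; exact hm, hodd⟩

end Main

end Cfsg.Agent.Lib.IsaCliff
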