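import Mathlib
import Cfsg.Prelude.Def_Local
import Cfsg.Prelude.Def_LocalEven
import Cfsg.Agent.Lib.PCore
import Cfsg.Agent.Lib.PResid
import Cfsg.Agent.Lib.LocalCore
import Cfsg.Agent.Lib.PMinimalComp
import Cfsg.Agent.Lib.CoprimeAct
import Cfsg.Agent.Lib.CoprimeHyper
import Cfsg.Agent.Lib.CoprimeClass
import Cfsg.Agent.Lib.Frat
import Cfsg.Agent.Lib.BGFit2

/-!
# Isolated `p`-minimal subgroups: the core argument, in a group with `O_p = 1`.

`Hyp p Sh Rh Th Lh` abstracts the image in `G / O_p(G)` of the situation: `Sh` the Sylow subgroup,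
`Rh` the image of `O_p(L)`, `Th` the image of `O^p(P)`, `Lh` the image of `L`.
-/

set_option autoImplicit false
set_option linter.unusedSectionVars false
set_option linter.unusedVariables false

open Cfsg Subgroup
open Cfsg.Agent.Lib.PCore Cfsg.Agent.Lib.PResid Cfsg.Agent.Lib.LocalCore
open Cfsg.Agent.Lib.PMinimalComp
open scoped commutatorElement

namespace Cfsg.Agent.Lib.IsoPMinCore

variable {Γ : Type*} [Group Γ] [Finite Γ] {p : ℕ} [hp : Fact p.Prime]

/-- The hypotheses. -/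
structure Hyp (p : ℕ) (Sh Rh Th Lh : Subgroup Γ) : Prop where
  core : pCore p Γ = ⊥
  hSp : IsPGroup p Sh
  hRS : Rh ≤ Sh
  hSL : Sh ≤ Lh
  hLR : Lh ≤ normalizer (Rh : Set Γ)
  hST : Sh ≤ normalizer (Th : Set Γ)
  hTgen : ∀ K : Subgroup Γ, Sh ≤ normalizer (K : Set Γ) → Th ≤ K ⊔ Sh → Th ≤ K
  dich : ∀ K : Subgroup Γ, Th ≤ K ⊔ Sh ∨ K ≤ normalizer (Rh : Set Γ)
  hTR : ¬ Th ≤ normalizer (Rh : Set Γ)
  top : normalClosure (Th : Set Γ) ⊔ Lh = ⊤

/-! ### Generic lemmas -/

theorem conj_mem_of_le_normalizer {K : Subgroup Γ} {x k : Γ} (hx : x ∈ normalizer (K : Set Γ))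
    (hk : k ∈ K) : x * k * x⁻¹ ∈ K :=
  (mem_normalizer_iff.mp hx k).mp hk

theorem conj_inv_mem_of_le_normalizer {K : Subgroup Γ} {x k : Γ} (hx : x ∈ normalizer (K : Set Γ))
    (hk : k ∈ K) : x⁻¹ * k * x ∈ K := by
  have := conj_mem_of_le_normalizer ((normalizer (K : Set Γ)).inv_mem hx) hk
  simpa using this

/-- Two mutually normalizing subgroups meeting trivially commute. -/
theorem le_centralizer_of_inf_eq_bot {K R : Subgroup Γ} (h1 : K ≤ normalizer (R : Set Γ))
    (h2 : R ≤ normalizer (K : Set Γ)) (h : K ⊓ R = ⊥) : K ≤ centralizer (R : Set Γ) := by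
  intro k hk
  rw [mem_centralizer_iff]
  intro r hr
  have h3 : r * k * r⁻¹ * k⁻¹ ∈ K := K.mul_mem (conj_mem_of_le_normalizer (h2 hr) hk) (K.inv_mem hk)
  have h4 : r * (k * r⁻¹ * k⁻¹) ∈ R := R.mul_mem hr (conj_mem_of_le_normalizer (h1 hk) (R.inv_mem hr))
  have h5 : r * k * r⁻¹ * k⁻¹ ∈ K ⊓ R := ⟨h3, by simpa [mul_assoc] using h4⟩
  rw [h, mem_bot] at h5
  have h6 : r * k = k * r := by
    have : r * k * r⁻¹ * k⁻¹ * (k * r) = k * r := by rw [h5, one_mul]
    simpa [mul_assoc] using this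
  exact h6

theorem normal_sup_mul {A L : Subgroup Γ} (hA : A.Normal) (h : A ⊔ L = ⊤) (g : Γ) :
    ∃ a ∈ A, ∃ l ∈ L, g = a * l := by
  have h1 : g ∈ ((A ⊔ L : Subgroup Γ) : Set Γ) := by rw [h]; trivial
  rw [Subgroup.normal_mul] at h1
  obtain ⟨a, ha, l, hl, rfl⟩ := h1
  exact ⟨a, ha, l, hl, rfl⟩

/-- `A` normalizes `⁅A, R⁆`. -/
theorem le_normalizer_commutator_left (A R : Subgroup Γ) :
    A ≤ normalizer ((⁅A, R⁆ : Subgroup Γ) : Set Γ) := by
  intro a ha
  apply Cfsg.Agent.Lib.Subnormal.mem_normalizer_of_conj_mem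
  have key : ⁅A, R⁆ ≤ (⁅A, R⁆ : Subgroup Γ).comap (MulAut.conj a).toMonoidHom := by
    rw [Subgroup.commutator_le]
    intro b hb r hr
    rw [mem_comap]
    have : (MulAut.conj a).toMonoidHom ⁅b, r⁆ = ⁅a * b, r⁆ * ⁅a, r⁆⁻¹ := by
      simp [commutatorElement_def, mul_assoc]
    rw [this]
    exact Subgroup.mul_mem _ (Subgroup.commutator_mem_commutator (A.mul_mem ha hb) hr)
      (Subgroup.inv_mem _ (Subgroup.commutator_mem_commutator ha hr))
  exact fun d hd => key hd

/-- An element normalizing `A` and `R` normalizes `⁅A, R⁆`. -/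
theorem mem_normalizer_commutator {A R : Subgroup Γ} {x : Γ} (h1 : x ∈ normalizer (A : Set Γ))
    (h2 : x ∈ normalizer (R : Set Γ)) : x ∈ normalizer ((⁅A, R⁆ : Subgroup Γ) : Set Γ) := by
  apply Cfsg.Agent.Lib.Subnormal.mem_normalizer_of_conj_mem
  have key : ⁅A, R⁆ ≤ (⁅A, R⁆ : Subgroup Γ).comap (MulAut.conj x).toMonoidHom := by
    rw [Subgroup.commutator_le]
    intro b hb r hr
    rw [mem_comap]
    have : (MulAut.conj x).toMonoidHom ⁅b, r⁆ = ⁅x * b * x⁻¹, x * r * x⁻¹⁆ := by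
      simp [commutatorElement_def, mul_assoc]
    rw [this]
    exact Subgroup.commutator_mem_commutator (conj_mem_of_le_normalizer h1 hb)
      (conj_mem_of_le_normalizer h2 hr)
  exact fun d hd => key hd

/-- Coprime action: if `⁅A, R⁆` is centralized by `R` then it is trivial. -/
theorem le_centralizer_of_commutator_le {A R : Subgroup Γ} (hR : IsPGroup p R)
    (hA : ¬ p ∣ Nat.card A) (hRA : R ≤ normalizer (A : Set Γ))
    (h : ⁅A, R⁆ ≤ centralizer (R : Set Γ)) : A ≤ centralizer (R : Set Γ) := by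
  intro a ha
  rw [mem_centralizer_iff]
  intro r hr
  set c : Γ := r * a * r⁻¹ * a⁻¹ with hc
  have hcA : c ∈ A := A.mul_mem (conj_mem_of_le_normalizer (hRA hr) ha) (A.inv_mem ha)
  have hcD : c ∈ ⁅A, R⁆ := by
    have : c = ⁅a, r⁆⁻¹ := by
      simp [commutatorElement_def, hc, mul_assoc]
    rw [this]
    exact Subgroup.inv_mem _ (Subgroup.commutator_mem_commutator ha hr)
  have hcr : c * r = r * c := by
    exact (mem_centralizer_iff.mp (h hcD) r hr).symm
  have hpow : ∀ n : ℕ, r ^ n * a * (r ^ n)⁻¹ = c ^ n * a := by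
    intro n
    induction n with
    | zero => simp
    | succ n ih =>
      have hcn : Commute (c ^ n) r := (Commute.pow_left (show Commute c r from hcr) n)
      have h1 : r ^ (n + 1) * a * (r ^ (n + 1))⁻¹ = r * (r ^ n * a * (r ^ n)⁻¹) * r⁻¹ := by
        rw [pow_succ']; group
      rw [h1, ih]
      have h2 : r * (c ^ n * a) * r⁻¹ = c ^ n * (r * a * r⁻¹) := by
        have : r * c ^ n = c ^ n * r := hcn.symm.eq
        calc r * (c ^ n * a) * r⁻¹ = (r * c ^ n) * a * r⁻¹ := by group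
          _ = (c ^ n * r) * a * r⁻¹ := by rw [this]
          _ = c ^ n * (r * a * r⁻¹) := by group
      rw [h2]
      have h3 : r * a * r⁻¹ = c * a := by simp [hc]
      rw [h3, pow_succ]
      group
  obtain ⟨k, hk⟩ := (hR ⟨r, hr⟩)
  have hk' : r ^ p ^ k = 1 := congrArg Subtype.val hk
  have h1 := hpow (p ^ k)
  rw [hk'] at h1
  have h2 : c ^ p ^ k = 1 := by
    have : a = c ^ p ^ k * a := by simpa using h1
    exact (mul_eq_right.mp this.symm)
  have h3 : orderOf c ∣ p ^ k := orderOf_dvd_of_pow_eq_one h2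
  have h4 : orderOf c ∣ Nat.card A := by
    have := Subgroup.orderOf_dvd_natCard A hcA
    exact this
  have h5 : orderOf c = 1 := by
    obtain ⟨j, -, hj⟩ := (Nat.dvd_prime_pow hp.out).mp h3
    rcases Nat.eq_zero_or_pos j with rfl | hjpos
    · simpa using hj
    · exfalso
      apply hA
      rw [hj] at h4
      exact (dvd_pow_self p hjpos.ne').trans h4
  have h6 : c = 1 := orderOf_eq_one_iff.mp h5
  have h7 : r * a = a * r := by
    have : r * a * r⁻¹ * a⁻¹ * (a * r) = a * r := by rw [← hc, h6, one_mul]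
    simpa [mul_assoc] using this
  exact h7

theorem conjSup_le_layer {C : Subgroup Γ} (hC : IsComponent C) (S : Subgroup Γ) :
    conjSup C S ≤ layer Γ := by
  apply iSup_le
  intro s
  exact comp_le_layer (comp_conj hC s)

theorem layer_le_normalizer_conjSup {C : Subgroup Γ} (hC : IsComponent C) (S : Subgroup Γ) :
    layer Γ ≤ normalizer (conjSup C S : Set Γ) := by
  intro e he
  apply Cfsg.Agent.Lib.Subnormal.mem_normalizer_of_conj_mem
  have key : conjSup C S ≤ (conjSup C S).comap (MulAut.conj e).toMonoidHom := by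
    apply iSup_le
    rintro s x hx
    rw [mem_comap]
    have h1 : e ∈ normalizer ((C.map (MulAut.conj (s : Γ)).toMonoidHom : Subgroup Γ) : Set Γ) :=
      layer_le_normalizer (comp_conj hC s) he
    have h2 := (mem_normalizer_iff.mp h1 x).mp hx
    exact (le_iSup (fun s : ↥S => C.map (MulAut.conj (s : Γ)).toMonoidHom) s) h2
  exact fun d hd => key hd

theorem conjSup_subnormal {C : Subgroup Γ} (hC : IsComponent C) (S : Subgroup Γ) :
    (conjSup C S).IsSubnormal :=
  subnormal_of_normalized (conjSup_le_layer hC S) (layer_le_normalizer_conjSup hC S)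
    (layer_normal (G := Γ)).isSubnormal

/-- `T` central in a subnormal subgroup containing it lies in the Fitting subgroup. -/
theorem le_fitting_of_central {K T : Subgroup Γ} (hs : K.IsSubnormal) (hTK : T ≤ K)
    (hK : K ≤ centralizer (T : Set Γ)) : T ≤ fittingSubgroup Γ := by
  apply subnormal_nilpotent_le_fitting
  · exact subnormal_of_normalized hTK (hK.trans (Subgroup.centralizer_le_normalizer _)) hs
  · let _ : CommGroup T :=
      { mul_comm := fun a b => Subtype.ext (mem_centralizer_iff.mp (hK (hTK a.2)) b b.2).symm }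
    infer_instance

namespace Hyp

variable {Sh Rh Th Lh : Subgroup Γ}

theorem hSR (h : Hyp p Sh Rh Th Lh) : Sh ≤ normalizer (Rh : Set Γ) := h.hSL.trans h.hLR

theorem hRp (h : Hyp p Sh Rh Th Lh) : IsPGroup p Rh := h.hSp.to_le h.hRS

theorem dich' (h : Hyp p Sh Rh Th Lh) (K : Subgroup Γ) (hK : Sh ≤ normalizer (K : Set Γ)) :
    Th ≤ K ∨ K ≤ normalizer (Rh : Set Γ) := by
  rcases h.dich K with h1 | h1
  · exact Or.inl (h.hTgen K hK h1)
  · exact Or.inr h1

theorem hRK (h : Hyp p Sh Rh Th Lh) {K : Subgroup Γ} (hK : Sh ≤ normalizer (K : Set Γ)) :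
    Rh ≤ normalizer (K : Set Γ) := h.hRS.trans hK

/-- Dichotomy for subnormal subgroups. -/
theorem subn (h : Hyp p Sh Rh Th Lh) (K : Subgroup Γ) (hK : Sh ≤ normalizer (K : Set Γ))
    (hs : K.IsSubnormal) : Th ≤ K ∨ K ≤ centralizer (Rh : Set Γ) := by
  rcases h.dich' K hK with h1 | h1
  · exact Or.inl h1
  · right
    apply le_centralizer_of_inf_eq_bot h1 (h.hRK hK)
    apply Cfsg.Agent.Lib.PResid.eq_bot_of_isSubnormal_of_isPGroup h.core
    · apply subnormal_of_normalized inf_le_left _ hs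
      intro k hk
      apply Cfsg.Agent.Lib.Subnormal.mem_normalizer_of_conj_mem
      rintro d ⟨hd1, hd2⟩
      exact ⟨K.mul_mem (K.mul_mem hk hd1) (K.inv_mem hk), conj_mem_of_le_normalizer (h1 hk) hd2⟩
    · exact h.hRp.to_le inf_le_right

/-- Dichotomy for subgroups of order prime to `p`. -/
theorem copr (h : Hyp p Sh Rh Th Lh) (K : Subgroup Γ) (hK : Sh ≤ normalizer (K : Set Γ))
    (hc : ¬ p ∣ Nat.card K) : Th ≤ K ∨ K ≤ centralizer (Rh : Set Γ) := by
  rcases h.dich' K hK with h1 | h1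
  · exact Or.inl h1
  · right
    apply le_centralizer_of_inf_eq_bot h1 (h.hRK hK)
    have hp1 : IsPGroup p ↥(K ⊓ Rh) := h.hRp.to_le inf_le_right
    apply Cfsg.Agent.Lib.PCore.eq_bot_of_isPGroup_of_coprime hp1
    have h2 : Nat.card ↥(K ⊓ Rh) ∣ Nat.card K := Subgroup.card_dvd_of_le inf_le_left
    exact ((Nat.Prime.coprime_iff_not_dvd hp.out).mpr (fun hd => hc (hd.trans h2))).symm

theorem centralizer_le_normalizer' (Rh : Subgroup Γ) :
    centralizer (Rh : Set Γ) ≤ normalizer (Rh : Set Γ) :=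
  Subgroup.centralizer_le_normalizer _

theorem not_le_centralizer (h : Hyp p Sh Rh Th Lh) : ¬ Th ≤ centralizer (Rh : Set Γ) := fun h1 =>
  h.hTR (h1.trans (centralizer_le_normalizer' Rh))

theorem Rh_ne_bot (h : Hyp p Sh Rh Th Lh) : Rh ≠ ⊥ := by
  rintro rfl
  apply h.hTR
  intro x _
  rw [mem_normalizer_iff]
  intro y
  simp only [mem_bot]
  constructor
  · rintro rfl; simp
  · intro hy
    have : y = x⁻¹ * (x * y * x⁻¹) * x := by group
    rw [this, hy]; simp

theorem Th_ne_bot (h : Hyp p Sh Rh Th Lh) : Th ≠ ⊥ := by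
  rintro rfl
  apply h.hTR
  exact bot_le

/-- `R` does not centralize `F*`. -/
theorem not_fstar_comm (h : Hyp p Sh Rh Th Lh) :
    ¬ generalizedFittingSubgroup Γ ≤ centralizer (Rh : Set Γ) := by
  intro h1
  have h2 : Rh ≤ centralizer (generalizedFittingSubgroup Γ : Set Γ) := by
    rw [← Subgroup.commutator_eq_bot_iff_le_centralizer, Subgroup.commutator_comm,
      Subgroup.commutator_eq_bot_iff_le_centralizer]
    exact h1
  have h3 : Rh ≤ generalizedFittingSubgroup Γ := h2.trans centralizer_generalizedFitting_le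
  apply h.Rh_ne_bot
  apply Cfsg.Agent.Lib.PResid.eq_bot_of_isSubnormal_of_isPGroup h.core _ h.hRp
  refine subnormal_of_normalized h3 ?_ (generalizedFitting_normal (G := Γ)).isSubnormal
  exact h1.trans (centralizer_le_normalizer' Rh)

/-- `T ≤ F*`. -/
theorem le_fstar (h : Hyp p Sh Rh Th Lh) : Th ≤ generalizedFittingSubgroup Γ := by
  rcases h.subn _ (by rw [normalizer_eq_top_iff.mpr (generalizedFitting_normal (G := Γ))]; exact le_top)
    (generalizedFitting_normal (G := Γ)).isSubnormal with h1 | h1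
  · exact h1
  · exact absurd h1 h.not_fstar_comm


theorem comm_normal (h : Hyp p Sh Rh Th Lh) :
    (⁅normalClosure (Th : Set Γ), Rh⁆ : Subgroup Γ).Normal := by
  rw [← normalizer_eq_top_iff, eq_top_iff, ← h.top]
  refine sup_le (le_normalizer_commutator_left _ _) ?_
  intro l hl
  apply mem_normalizer_commutator _ (h.hLR hl)
  rw [normalizer_eq_top_iff.mpr inferInstance]
  trivial

theorem T_le_A : Th ≤ normalClosure (Th : Set Γ) := subset_normalClosure

theorem A_not_comm (h : Hyp p Sh Rh Th Lh) : ¬ normalClosure (Th : Set Γ) ≤ centralizer (Rh : Set Γ) :=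
  fun h1 => h.not_le_centralizer (T_le_A.trans h1)

theorem S_le_of_normal (Sh : Subgroup Γ) {K : Subgroup Γ} (hK : K.Normal) :
    Sh ≤ normalizer (K : Set Γ) := by
  rw [normalizer_eq_top_iff.mpr hK]
  exact le_top

theorem not_dvd_of_nilpotent_normal (h : Hyp p Sh Rh Th Lh) {A : Subgroup Γ} (hA : A.Normal)
    (hAnil : Group.IsNilpotent A) : ¬ p ∣ Nat.card A := by
  obtain ⟨P⟩ : Nonempty (Sylow p A) := inferInstance
  have q := (Group.isNilpotent_of_finite_tfae (G := A)).out 0 3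
  have hPn : (P : Subgroup A).Normal := q.mp hAnil p hp P
  have h1 : (P : Subgroup A) ≤ pCore p A := le_pCore hPn P.isPGroup'
  have h2 : (pCore p A).map A.subtype ≤ pCore p Γ :=
    Cfsg.Agent.Lib.PResid.map_pCore_le_of_isSubnormal hA.isSubnormal
  rw [h.core, le_bot_iff, Subgroup.map_eq_bot_iff_of_injective _ A.subtype_injective] at h2
  rw [h2, le_bot_iff] at h1
  have h3 := P.not_dvd_index
  rw [h1, Subgroup.index_bot] at h3
  exact h3

/-- Case A: `T` in the Fitting subgroup. -/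
theorem caseA (h : Hyp p Sh Rh Th Lh) (hTF : Th ≤ fittingSubgroup Γ) :
    Th = normalClosure (Th : Set Γ) ∧
      (∃ t : ℕ, t.Prime ∧ t ≠ p ∧ IsPGroup t (normalClosure (Th : Set Γ))) ∧
      ⁅⁅normalClosure (Th : Set Γ), normalClosure (Th : Set Γ)⁆, normalClosure (Th : Set Γ)⁆ = ⊥ := by
  classical
  set A : Subgroup Γ := normalClosure (Th : Set Γ) with hAdef
  haveI hAn : A.Normal := normalClosure_normal
  have hTA : Th ≤ A := T_le_A
  have hAF : A ≤ fittingSubgroup Γ := normalClosure_le_normal hTF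
  haveI hFnil : Group.IsNilpotent (fittingSubgroup Γ) := isNilpotent_fittingSubgroup
  have hAnil : Group.IsNilpotent A :=
    Subgroup.isNilpotent_of_ker_le_center (Subgroup.inclusion hAF) (by
      rw [(MonoidHom.ker_eq_bot_iff _).mpr (Subgroup.inclusion_injective hAF)]
      exact bot_le)
  have hApd : ¬ p ∣ Nat.card A := h.not_dvd_of_nilpotent_normal hAn hAnil
  have hSA : Sh ≤ normalizer (A : Set Γ) := S_le_of_normal Sh hAn
  have hcore : ∀ (u : ℕ) [Fact u.Prime], Sh ≤ normalizer ((Cfsg.pCoreOf u A : Subgroup Γ) : Set Γ) :=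
    fun u _ => hSA.trans (Cfsg.Agent.Lib.BGFit2.normalizer_le_normalizer_pCoreOf u A)
  obtain ⟨t, htp, hTt⟩ : ∃ t : ℕ, t.Prime ∧ Th ≤ Cfsg.pCoreOf t A := by
    by_contra hne
    push Not at hne
    apply h.A_not_comm
    have htop : (⊤ : Subgroup A) = ⨆ u : Nat.Primes, pCore (u : ℕ) A := by
      rw [← fittingSubgroup_eq_iSup_pCore, fittingSubgroup_eq_top_of_nilpotent]
    intro x hx
    have hx' : (⟨x, hx⟩ : A) ∈ ⨆ u : Nat.Primes, pCore (u : ℕ) A := htop ▸ mem_top _
    have hle : (⨆ u : Nat.Primes, pCore (u : ℕ) A) ≤ (centralizer (Rh : Set Γ)).subgroupOf A := by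
      refine iSup_le fun u => ?_
      haveI : Fact (u : ℕ).Prime := ⟨u.2⟩
      rcases h.copr (Cfsg.pCoreOf (u : ℕ) A) (hcore u) (fun hd => hApd (hd.trans
          (Subgroup.card_dvd_of_le (Cfsg.Agent.Lib.BGFit2.pCoreOf_le _ _)))) with h1 | h1
      · exact absurd h1 (hne u u.2)
      · intro y hy
        exact h1 ⟨y, hy, rfl⟩
    exact hle hx'
  haveI : Fact t.Prime := ⟨htp⟩
  have hcoreN : (Cfsg.pCoreOf t A).Normal := by
    rw [← normalizer_eq_top_iff, eq_top_iff]
    refine le_trans ?_ (Cfsg.Agent.Lib.BGFit2.normalizer_le_normalizer_pCoreOf t A)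
    rw [normalizer_eq_top_iff.mpr hAn]
  have hAt : IsPGroup t A := (Cfsg.Agent.Lib.BGFit2.isPGroup_pCoreOf t A).to_le
    (normalClosure_le_normal hTt)
  have hne : t ≠ p := by
    rintro rfl
    have : A = ⊥ := Cfsg.Agent.Lib.PCore.eq_bot_of_isPGroup_of_coprime hAt
      ((Nat.Prime.coprime_iff_not_dvd hp.out).mpr hApd).symm
    exact h.Th_ne_bot (le_bot_iff.mp (this ▸ hTA))
  -- `⁅A, R⁆ = A`
  have hDn : (⁅A, Rh⁆ : Subgroup Γ).Normal := h.comm_normal
  have hDA : ⁅A, Rh⁆ ≤ A := Subgroup.commutator_le_left _ _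
  have hRA : Rh ≤ normalizer (A : Set Γ) := h.hRK hSA
  have hTD : Th ≤ ⁅A, Rh⁆ := by
    rcases h.copr ⁅A, Rh⁆ (S_le_of_normal Sh hDn)
      (fun hd => hApd (hd.trans (Subgroup.card_dvd_of_le hDA))) with h1 | h1
    · exact h1
    · exact absurd (le_centralizer_of_commutator_le h.hRp hApd hRA h1) h.A_not_comm
  have hAD : A ≤ ⁅A, Rh⁆ := normalClosure_le_normal hTD
  -- Frattini
  set Φ : Subgroup Γ := (frattini A).map A.subtype with hΦ
  have hΦn : Φ.Normal := normal_map_of_characteristic hAn inferInstance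
  have hnf : ¬ Th ≤ Φ := by
    intro hle
    have hle2 : A ≤ Φ := normalClosure_le_normal hle
    have htop : frattini A = ⊤ := by
      rw [eq_top_iff]
      intro a _
      obtain ⟨b, hb, hba⟩ := hle2 a.2
      have : b = a := Subtype.ext hba
      rwa [← this]
    have hbot : (⊥ : Subgroup A) = ⊤ := frattini_nongenerating (by rw [htop, sup_top_eq])
    have : A = ⊥ := by
      rw [eq_bot_iff]
      intro a ha
      have h1 : (⟨a, ha⟩ : A) ∈ (⊥ : Subgroup A) := by rw [hbot]; trivial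
      rw [mem_bot] at h1
      have := congrArg Subtype.val h1
      simpa using this
    exact h.Th_ne_bot (le_bot_iff.mp (this ▸ hTA))
  -- the invariant supplement
  let φ : ↥Sh →* MulAut ↥A := A.normalizerMonoidHom.comp (Subgroup.inclusion hSA)
  letI act : MulDistribMulAction ↥Sh ↥A := MulDistribMulAction.compHom ↥A φ
  have hsmul : ∀ (s : ↥Sh) (x : ↥A), ((s • x : ↥A) : Γ) = (s : Γ) * x * (s : Γ)⁻¹ := fun s x => rfl
  set M : Subgroup A := Th.subgroupOf A ⊔ frattini A with hMdef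
  have hM : ∀ a : ↥Sh, ∀ x ∈ M, a • x ∈ M := by
    intro a
    have hle : M ≤ M.comap (MulDistribMulAction.toMonoidHom ↥A a) := by
      refine sup_le ?_ ?_
      · intro x hx
        rw [mem_comap]
        apply Subgroup.mem_sup_left
        show ((a • x : ↥A) : Γ) ∈ Th
        rw [hsmul]
        exact conj_mem_of_le_normalizer (h.hST a.2) hx
      · intro x hx
        rw [mem_comap]
        apply Subgroup.mem_sup_right
        exact Cfsg.Agent.Lib.CoprimeAct.frattini_invariant a x hx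
    exact fun x hx => hle hx
  have hcop : (Nat.card ↥Sh).Coprime t := by
    obtain ⟨k, hk⟩ := IsPGroup.iff_card.mp h.hSp
    rw [hk]
    exact Nat.Coprime.pow_left k ((Nat.coprime_primes hp.out htp).mpr hne.symm)
  obtain ⟨C, hC, hsup, hinf⟩ := Cfsg.Agent.Lib.CoprimeAct.exists_invariant_supplement
    (A := ↥Sh) (G := ↥A) hAt hcop M hM le_sup_right
  have hKS : Sh ≤ normalizer ((C.map A.subtype : Subgroup Γ) : Set Γ) := by
    intro s hs
    apply Cfsg.Agent.Lib.Subnormal.mem_normalizer_of_conj_mem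
    rintro _ ⟨c, hc, rfl⟩
    exact ⟨(⟨s, hs⟩ : ↥Sh) • c, hC _ c hc, rfl⟩
  have hKp : ¬ p ∣ Nat.card ↥(C.map A.subtype) := fun hd => hApd (hd.trans
    (Subgroup.card_dvd_of_le (Subgroup.map_subtype_le C)))
  have hTeq : A ≤ Th := by
    rcases h.copr _ hKS hKp with h1 | h1
    · exfalso
      apply hnf
      have h2 : Th.subgroupOf A ≤ C := by
        intro x hx
        obtain ⟨c, hc, hcx⟩ := h1 hx
        have : c = x := Subtype.ext hcx
        rwa [← this]
      have h3 : frattini A ≤ C := hinf ▸ inf_le_right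
      have h4 : M ≤ C := sup_le h2 h3
      have h5 : M = frattini A := by rw [← hinf]; exact (inf_eq_left.mpr h4).symm
      intro x hx
      have hxA := hTA hx
      have : (⟨x, hxA⟩ : A) ∈ M := Subgroup.mem_sup_left hx
      rw [h5] at this
      exact ⟨_, this, rfl⟩
    · have hMn : M.Normal := Cfsg.Agent.Lib.Frat.normal_of_commutator_le
        ((Cfsg.Agent.Lib.Frat.commutator_le_frattini hAt).trans le_sup_right)
      have hle : ⁅A, Rh⁆ ≤ M.map A.subtype := by
        rw [Subgroup.commutator_le]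
        intro a ha r hr
        have hamem : (⟨a, ha⟩ : A) ∈ ((M ⊔ C : Subgroup A) : Set A) := by rw [hsup]; trivial
        rw [Subgroup.normal_mul] at hamem
        obtain ⟨m, hm, c, hc, hmc⟩ := hamem
        have hmc' : a = (m : Γ) * (c : Γ) := by
          have := congrArg Subtype.val hmc
          simpa using this.symm
        have hcr : (c : Γ) * r = r * (c : Γ) :=
          (mem_centralizer_iff.mp (h1 ⟨c, hc, rfl⟩) r hr).symm
        have hkey : ⁅a, r⁆ = (m : Γ) * ((⟨r, h.hRS hr⟩ : ↥Sh) • m⁻¹ : ↥A).1 := by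
          rw [hsmul, hmc']
          simp only [commutatorElement_def, mul_inv_rev, Subgroup.coe_inv]
          calc (m : Γ) * (c : Γ) * r * ((c : Γ)⁻¹ * (m : Γ)⁻¹) * r⁻¹
              = (m : Γ) * ((c : Γ) * r) * (c : Γ)⁻¹ * (m : Γ)⁻¹ * r⁻¹ := by group
            _ = (m : Γ) * (r * (c : Γ)) * (c : Γ)⁻¹ * (m : Γ)⁻¹ * r⁻¹ := by rw [hcr]
            _ = (m : Γ) * (r * (m : Γ)⁻¹ * r⁻¹) := by group
        rw [hkey]
        refine ⟨m * ((⟨r, h.hRS hr⟩ : ↥Sh) • m⁻¹), M.mul_mem hm (hM _ _ (M.inv_mem hm)), rfl⟩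
      have hMtop : M = ⊤ := by
        rw [eq_top_iff]
        intro a _
        obtain ⟨b, hb, hba⟩ := (hAD.trans hle) a.2
        have : b = a := Subtype.ext hba
        rwa [← this]
      have hT : Th.subgroupOf A = ⊤ := frattini_nongenerating hMtop
      intro a ha
      have : (⟨a, ha⟩ : A) ∈ Th.subgroupOf A := by rw [hT]; trivial
      exact this
  refine ⟨le_antisymm hTA hTeq, ⟨t, htp, hne, hAt⟩, ?_⟩
  -- class at most two
  have hKn : (⁅A, A⁆ : Subgroup Γ).Normal := inferInstance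
  have hKA : ⁅A, A⁆ ≤ A := Subgroup.commutator_le_left _ _
  have hKΦ : ⁅A, A⁆ ≤ Φ := by
    rw [Subgroup.commutator_le]
    intro a ha b hb
    have h1 : ⁅(⟨a, ha⟩ : A), (⟨b, hb⟩ : A)⁆ ∈ commutator A :=
      Subgroup.commutator_mem_commutator (mem_top _) (mem_top _)
    exact ⟨_, Cfsg.Agent.Lib.Frat.commutator_le_frattini hAt h1, rfl⟩
  rcases h.copr ⁅A, A⁆ (S_le_of_normal Sh hKn)
    (fun hd => hApd (hd.trans (Subgroup.card_dvd_of_le hKA))) with h1 | h1
  · exact absurd (h1.trans hKΦ) hnf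
  · have hrot : ⁅⁅A, Rh⁆, (⁅A, A⁆ : Subgroup Γ)⁆ = ⊥ := by
      apply Subgroup.commutator_commutator_eq_bot_of_rotate
      · have h2 : ⁅Rh, (⁅A, A⁆ : Subgroup Γ)⁆ = ⊥ := by
          rw [Subgroup.commutator_comm]
          exact Subgroup.commutator_eq_bot_iff_le_centralizer.mpr h1
        rw [h2, Subgroup.commutator_bot_left]
      · have h2 : ⁅(⁅A, A⁆ : Subgroup Γ), A⁆ ≤ ⁅A, A⁆ := Subgroup.commutator_le_left _ _
        rw [← le_bot_iff]
        refine (Subgroup.commutator_mono h2 le_rfl).trans ?_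
        rw [le_bot_iff]
        exact Subgroup.commutator_eq_bot_iff_le_centralizer.mpr h1
    have hDeq : ⁅A, Rh⁆ = A := le_antisymm hDA hAD
    rw [hDeq, Subgroup.commutator_comm] at hrot
    exact hrot


/-- Case B: `T` not in the Fitting subgroup. -/
theorem caseB (h : Hyp p Sh Rh Th Lh) (hTF : ¬ Th ≤ fittingSubgroup Γ) :
    ∃ C : Subgroup Γ, IsComponent C ∧ normalClosure (Th : Set Γ) = conjSup C Sh ∧
      p ∣ Nat.card (normalClosure (Th : Set Γ)) := by
  classical
  set A : Subgroup Γ := normalClosure (Th : Set Γ) with hAdef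
  haveI hAn : A.Normal := normalClosure_normal
  have hTA : Th ≤ A := T_le_A
  have hFR : fittingSubgroup Γ ≤ centralizer (Rh : Set Γ) :=
    (h.subn _ (S_le_of_normal _ inferInstance)
      (fittingSubgroup_normal (G := Γ)).isSubnormal).resolve_left hTF
  obtain ⟨C, hC, hCR⟩ : ∃ C : Subgroup Γ, IsComponent C ∧ ¬ C ≤ centralizer (Rh : Set Γ) := by
    by_contra hne
    push Not at hne
    apply h.not_fstar_comm
    exact sup_le (sSup_le fun C hC => hne C hC) hFR
  have hcompT : ∀ D : Subgroup Γ, IsComponent D → ¬ D ≤ centralizer (Rh : Set Γ) →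
      Th ≤ conjSup D Sh := by
    intro D hD hDR
    rcases h.subn _ (conjSup_normalized D Sh) (conjSup_subnormal hD Sh) with h1 | h1
    · exact h1
    · exact absurd ((le_conjSup D Sh).trans h1) hDR
  set K : Subgroup Γ := conjSup C Sh with hK
  have hTK : Th ≤ K := hcompT C hC hCR
  have hKs : K.IsSubnormal := conjSup_subnormal hC Sh
  have hnc : ¬ K ≤ centralizer (Th : Set Γ) := fun h1 =>
    hTF (le_fitting_of_central hKs hTK h1)
  have hCT : ¬ C ≤ centralizer (Th : Set Γ) := by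
    intro h1
    apply hnc
    apply iSup_le
    rintro s x ⟨y, hy, rfl⟩
    rw [mem_centralizer_iff]
    intro t ht
    have ht' := conj_inv_mem_of_le_normalizer (h.hST s.2) ht
    have h2 := mem_centralizer_iff.mp (h1 hy) _ ht'
    show t * ((s : Γ) * y * (s : Γ)⁻¹) = ((s : Γ) * y * (s : Γ)⁻¹) * t
    calc t * ((s : Γ) * y * (s : Γ)⁻¹) = (s : Γ) * (((s : Γ)⁻¹ * t * (s : Γ)) * y) * (s : Γ)⁻¹ := by group
      _ = (s : Γ) * (y * ((s : Γ)⁻¹ * t * (s : Γ))) * (s : Γ)⁻¹ := by rw [h2]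
      _ = ((s : Γ) * y * (s : Γ)⁻¹) * t := by group
  have hCA : C ≤ A := by
    rcases comp_le_or_commute hC hAn.isSubnormal with h1 | h1
    · exact h1
    · exfalso
      apply hCT
      exact (Subgroup.commutator_eq_bot_iff_le_centralizer.mp h1).trans
        (Subgroup.centralizer_le hTA)
  have hKA : K ≤ A := by
    apply iSup_le
    rintro s x ⟨y, hy, rfl⟩
    exact hAn.conj_mem y (hCA hy) s
  have hAF : A ≤ generalizedFittingSubgroup Γ := normalClosure_le_normal h.le_fstar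
  have hFn : ∀ D : Subgroup Γ, IsComponent D → generalizedFittingSubgroup Γ ≤ normalizer (D : Set Γ) := by
    intro D hD
    refine sup_le (layer_le_normalizer hD) ?_
    have h1 : ⁅fittingSubgroup Γ, D⁆ = ⊥ := by
      rw [Subgroup.commutator_comm]
      exact comp_commute_fitting hD
    exact (Subgroup.commutator_eq_bot_iff_le_centralizer.mp h1).trans
      (Subgroup.centralizer_le_normalizer _)
  have hcomp : ∀ D : Subgroup Γ, IsComponent D → ¬ D ≤ centralizer (Rh : Set Γ) → D ≤ K := by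
    intro D hD hDR
    by_contra hDK
    apply hnc
    refine le_trans ?_ (Subgroup.centralizer_le (hcompT D hD hDR))
    rw [Subgroup.le_centralizer_iff]
    apply iSup_le
    intro s'
    rw [Subgroup.le_centralizer_iff]
    apply iSup_le
    intro s
    apply comp_le_centralizer_of_ne (comp_conj hC s) (comp_conj hD s')
    intro heq
    apply hDK
    intro x hx
    have h1 : (s' : Γ) * x * (s' : Γ)⁻¹ ∈ C.map (MulAut.conj (s : Γ)).toMonoidHom := by
      rw [heq]
      exact ⟨x, hx, rfl⟩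
    obtain ⟨y, hy, hyx⟩ := h1
    have h2 : (s : Γ) * y * (s : Γ)⁻¹ = (s' : Γ) * x * (s' : Γ)⁻¹ := hyx
    have h3 : x = ((s'⁻¹ * s : ↥Sh) : Γ) * y * ((s'⁻¹ * s : ↥Sh) : Γ)⁻¹ := by
      have h4 : x = (s' : Γ)⁻¹ * ((s' : Γ) * x * (s' : Γ)⁻¹) * (s' : Γ) := by group
      rw [h4, ← h2]
      simp only [Subgroup.coe_mul, Subgroup.coe_inv]
      group
    rw [h3]
    exact (le_iSup (fun s : ↥Sh => C.map (MulAut.conj (s : Γ)).toMonoidHom) (s'⁻¹ * s)) ⟨y, hy, rfl⟩
  have hKn : K.Normal := by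
    constructor
    intro k hk g
    have key : K ≤ K.comap (MulAut.conj g).toMonoidHom := by
      apply iSup_le
      rintro s x ⟨y, hy, rfl⟩
      rw [mem_comap]
      obtain ⟨a, ha, l, hl, hgs⟩ := normal_sup_mul hAn h.top (g * s)
      have hD : IsComponent (C.map (MulAut.conj l).toMonoidHom) := comp_conj hC l
      have hDR : ¬ C.map (MulAut.conj l).toMonoidHom ≤ centralizer (Rh : Set Γ) := by
        intro h1
        apply hCR
        intro c hc
        rw [mem_centralizer_iff]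
        intro r hr
        have hr' := conj_mem_of_le_normalizer (h.hLR hl) hr
        have h2 := mem_centralizer_iff.mp (h1 ⟨c, hc, rfl⟩) _ hr'
        have h3 : l * r * l⁻¹ * (l * c * l⁻¹) = l * c * l⁻¹ * (l * r * l⁻¹) := h2
        have h4 : l * (r * c) * l⁻¹ = l * (c * r) * l⁻¹ := by
          calc l * (r * c) * l⁻¹ = l * r * l⁻¹ * (l * c * l⁻¹) := by group
            _ = l * c * l⁻¹ * (l * r * l⁻¹) := h3
            _ = l * (c * r) * l⁻¹ := by group
        have h5 : r * c = c * r := by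
          have := mul_right_cancel h4
          exact mul_left_cancel this
        exact h5
      have hDK := hcomp _ hD hDR
      have haD := hFn _ hD (hAF ha)
      have h6 : a * (l * y * l⁻¹) * a⁻¹ ∈ C.map (MulAut.conj l).toMonoidHom :=
        (mem_normalizer_iff.mp haD _).mp ⟨y, hy, rfl⟩
      have h7 : (MulAut.conj g).toMonoidHom ((MulAut.conj (s : Γ)).toMonoidHom y) =
          a * (l * y * l⁻¹) * a⁻¹ := by
        show g * ((s : Γ) * y * (s : Γ)⁻¹) * g⁻¹ = a * (l * y * l⁻¹) * a⁻¹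
        calc g * ((s : Γ) * y * (s : Γ)⁻¹) * g⁻¹ = (g * s) * y * (g * s)⁻¹ := by group
          _ = (a * l) * y * (a * l)⁻¹ := by rw [hgs]
          _ = a * (l * y * l⁻¹) * a⁻¹ := by group
      rw [h7]
      exact hDK h6
    exact key hk
  have hAK : A ≤ K := normalClosure_le_normal hTK
  have hAeq : A = K := le_antisymm hAK hKA
  refine ⟨C, hC, hAeq, ?_⟩
  by_contra hpd
  have hSA : Sh ≤ normalizer (A : Set Γ) := S_le_of_normal Sh hAn
  have hQ : ∀ (q : ℕ) [Fact q.Prime], ∃ Q : Sylow q A,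
      Sh ≤ normalizer (((Q : Subgroup A).map A.subtype : Subgroup Γ) : Set Γ) ∧
        (Th ≤ (Q : Subgroup A).map A.subtype ∨ (Q : Subgroup A).map A.subtype ≤ centralizer (Rh : Set Γ)) := by
    intro q _
    obtain ⟨Q, hQ1⟩ := Cfsg.Agent.Lib.CoprimeHyper.exists_invariant_sylow (q := q) Sh A h.hSp hpd hSA
    have hQ2 : Sh ≤ normalizer (((Q : Subgroup A).map A.subtype : Subgroup Γ) : Set Γ) := fun s hs =>
      Cfsg.Agent.Lib.Subnormal.mem_normalizer_of_conj_mem _ _ (hQ1 s hs)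
    refine ⟨Q, hQ2, h.copr _ hQ2 (fun hd => hpd (hd.trans (Subgroup.card_dvd_of_le
      (Subgroup.map_subtype_le _))))⟩
  set Cn : Subgroup A := (centralizer (Rh : Set Γ)).subgroupOf A with hCn
  have hle_Cn : ∀ {q : ℕ} [Fact q.Prime] (Q : Sylow q A),
      (Q : Subgroup A).map A.subtype ≤ centralizer (Rh : Set Γ) → (Q : Subgroup A) ≤ Cn := by
    intro q _ Q h1 x hx
    exact h1 ⟨x, hx, rfl⟩
  have hnotop : Cn ≠ ⊤ := by
    intro htop
    apply h.A_not_comm
    intro x hx
    have : (⟨x, hx⟩ : A) ∈ Cn := by rw [htop]; trivial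
    exact this
  obtain ⟨t, htp, Qt, hQt1, hQt2⟩ : ∃ (t : ℕ) (_ : Fact t.Prime) (Qt : Sylow t A),
      Sh ≤ normalizer (((Qt : Subgroup A).map A.subtype : Subgroup Γ) : Set Γ) ∧
        Th ≤ (Qt : Subgroup A).map A.subtype := by
    by_contra hne
    apply hnotop
    apply Cfsg.Agent.Lib.PCore.eq_top_of_forall_sylow_le
    intro q _
    obtain ⟨Q, hQ1, hQ2⟩ := hQ q
    rcases hQ2 with hQ2 | hQ2
    · exact absurd ⟨q, inferInstance, Q, hQ1, hQ2⟩ hne
    · exact ⟨Q, hle_Cn Q hQ2⟩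
  have htp' : t.Prime := htp.out
  have hTt : IsPGroup t Th := (IsPGroup.map Qt.isPGroup' A.subtype).to_le hQt2
  have hother : ∀ (q : ℕ) [Fact q.Prime], q ≠ t → ¬ q ∣ Cn.index := by
    intro q hq hqt hd
    obtain ⟨Q, hQ1, hQ2⟩ := hQ q
    rcases hQ2 with hQ2 | hQ2
    · have hTq : IsPGroup q Th := (IsPGroup.map Q.isPGroup' A.subtype).to_le hQ2
      apply h.Th_ne_bot
      apply Cfsg.Agent.Lib.PCore.eq_bot_of_isPGroup_of_coprime hTq
      obtain ⟨k, hk⟩ := IsPGroup.iff_card.mp hTt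
      rw [hk]
      exact Nat.Coprime.pow_left k ((Nat.coprime_primes htp' hq.out).mpr hqt.symm)
    · exact Q.not_dvd_index (hd.trans (Subgroup.index_dvd_of_le (hle_Cn Q hQ2)))
  have hcop : Nat.Coprime (Qt : Subgroup A).index Cn.index := by
    by_contra hnc'
    obtain ⟨q, hq, hq1, hq2⟩ := Nat.Prime.not_coprime_iff_dvd.mp hnc'
    by_cases hqt : q = t
    · subst hqt
      exact Qt.not_dvd_index hq1
    · haveI : Fact q.Prime := ⟨hq⟩
      exact hother q hqt hq2
  have hDQ : ⁅A, Rh⁆ ≤ (Qt : Subgroup A).map A.subtype := by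
    rw [Subgroup.commutator_le]
    intro a ha r hr
    obtain ⟨u, hu, c, hc, hac⟩ := Cfsg.Agent.Lib.CoprimeClass.exists_mul_of_coprime _ _ hcop (⟨a, ha⟩ : A)
    have hac' : a = (u : Γ) * (c : Γ) := congrArg Subtype.val hac
    have hcr : (c : Γ) * r = r * (c : Γ) := (mem_centralizer_iff.mp hc r hr).symm
    have hkey : ⁅a, r⁆ = (u : Γ) * (r * (u : Γ)⁻¹ * r⁻¹) := by
      rw [hac']
      simp only [commutatorElement_def, mul_inv_rev]
      calc (u : Γ) * (c : Γ) * r * ((c : Γ)⁻¹ * (u : Γ)⁻¹) * r⁻¹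
          = (u : Γ) * ((c : Γ) * r) * (c : Γ)⁻¹ * (u : Γ)⁻¹ * r⁻¹ := by group
        _ = (u : Γ) * (r * (c : Γ)) * (c : Γ)⁻¹ * (u : Γ)⁻¹ * r⁻¹ := by rw [hcr]
        _ = (u : Γ) * (r * (u : Γ)⁻¹ * r⁻¹) := by group
    rw [hkey]
    have hu1 : (u : Γ) ∈ (Qt : Subgroup A).map A.subtype := ⟨u, hu, rfl⟩
    exact Subgroup.mul_mem _ hu1 (conj_mem_of_le_normalizer (hQt1 (h.hRS hr)) (Subgroup.inv_mem _ hu1))
  have hDn : (⁅A, Rh⁆ : Subgroup Γ).Normal := h.comm_normal
  have hDt : IsPGroup t ↥(⁅A, Rh⁆ : Subgroup Γ) := (IsPGroup.map Qt.isPGroup' A.subtype).to_le hDQ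
  have hDF : ⁅A, Rh⁆ ≤ fittingSubgroup Γ := le_fittingSubgroup hDn hDt.isNilpotent
  have hAL : A ≤ layer Γ := by
    rw [hAeq]
    apply iSup_le
    intro s
    exact comp_le_layer (comp_conj hC s)
  have hDA : ⁅⁅A, Rh⁆, A⁆ = ⊥ := by
    rw [← le_bot_iff, ← (layer_commute_fitting (G := Γ)), Subgroup.commutator_comm]
    exact Subgroup.commutator_mono hAL hDF
  have hperf : A ≤ ⁅A, A⁆ := by
    rw [hAeq]
    apply iSup_le
    intro s
    rw [← comp_perfect (comp_conj hC s)]
    have h1 : C.map (MulAut.conj (s : Γ)).toMonoidHom ≤ K :=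
      le_iSup (fun s : ↥Sh => C.map (MulAut.conj (s : Γ)).toMonoidHom) s
    exact Subgroup.commutator_mono h1 h1
  have hrot : ⁅⁅A, A⁆, Rh⁆ = ⊥ := by
    apply Subgroup.commutator_commutator_eq_bot_of_rotate hDA
    rw [Subgroup.commutator_comm Rh A]
    exact hDA
  apply h.A_not_comm
  rw [← Subgroup.commutator_eq_bot_iff_le_centralizer, ← le_bot_iff, ← hrot]
  exact Subgroup.commutator_mono hperf le_rfl

end Hyp

end Cfsg.Agent.Lib.IsoPMinCore
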