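import Mathlib
import Cfsg.Agent.Lib.IsoPMinCore

/-!
# Isolated `p`-minimal subgroups: from `G` to `G / O_p(G)` and to `Y / O_p(Y)`.
-/

set_option autoImplicit false
set_option linter.unusedSectionVars false
set_option linter.unusedVariables false

open Cfsg Subgroup
open Cfsg.Agent.Lib.PCore Cfsg.Agent.Lib.PResid Cfsg.Agent.Lib.LocalCore
open Cfsg.Agent.Lib.PMinimalComp Cfsg.Agent.Lib.BGFit2 Cfsg.Agent.Lib.IsoPMinCore
open scoped commutatorElement

namespace Cfsg.Agent.Lib.IsoPMinLift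

variable {G : Type*} [Group G] [Finite G] {p : ℕ} [hp : Fact p.Prime]

/-- An element of order prime to `p` in `K S`, `S` a `p`-group normalizing `K`, lies in `K`. -/
theorem mem_of_mem_sup_of_coprime {Γ : Type*} [Group Γ] [Finite Γ] {K T : Subgroup Γ}
    (hT : IsPGroup p T) (hTK : T ≤ normalizer (K : Set Γ)) {x : Γ} (hx : x ∈ K ⊔ T)
    (hc : (orderOf x).Coprime p) : x ∈ K := by
  set H : Subgroup Γ := K ⊔ T with hH
  have hHK : H ≤ normalizer (K : Set Γ) := sup_le Subgroup.le_normalizer hTK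
  haveI hn : (K.subgroupOf H).Normal := Subgroup.normal_subgroupOf_of_le_normalizer hHK
  have hsup : K.subgroupOf H ⊔ T.subgroupOf H = ⊤ := by
    exact (Subgroup.codisjoint_subgroupOf_sup K T).eq_top
  have hq : IsPGroup p (↥H ⧸ K.subgroupOf H) :=
    Cfsg.Agent.Lib.PMinimal.isPGroup_quotient_of_sup (S := T.subgroupOf H) hT.comap_subtype hsup
  have h1 := pResidual_le_of_isPGroup_quotient hq
  have h2 : (⟨x, hx⟩ : H) ∈ pResidual p H := by
    apply mem_pResidual_of_coprime
    rw [← Subgroup.orderOf_coe]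
    exact hc
  exact h1 h2

/-- Generation by `N_G(S)` and `p`-minimal subgroups over `S`. -/
theorem le_of_gen (S : Sylow p G) (X H : Subgroup G)
    (hN : normalizer ((S : Subgroup G) : Set G) ≤ X)
    (hX : ∀ K : Subgroup G, (S : Subgroup G) ≤ K → IsPMinimal p ↥K → K ≤ H → K ≤ X)
    (hSH : (S : Subgroup G) ≤ H) : H ≤ X := by
  classical
  by_contra hne
  obtain ⟨K, ⟨hSK, hKH, hKX⟩, hmin⟩ := WellFounded.has_min (wellFounded_lt (α := Subgroup G))
    {K | (S : Subgroup G) ≤ K ∧ K ≤ H ∧ ¬ K ≤ X} ⟨H, hSH, le_rfl, hne⟩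
  apply hKX
  apply hX K hSK ?_ hKH
  let S₁ : Sylow p K := S.subtype hSK
  have hS₁ : (S₁ : Subgroup K) = (S : Subgroup G).subgroupOf K := Sylow.coe_subtype _ _
  have hSX : (S : Subgroup G) ≤ X := Subgroup.le_normalizer.trans hN
  have hlt : ∀ K' : Subgroup K, K' ≠ ⊤ → (S₁ : Subgroup K) ≤ K' → K' ≤ X.subgroupOf K := by
    intro K' hne' hS
    by_contra h
    have hK'X : ¬ K'.map K.subtype ≤ X := by
      intro h1
      apply h
      intro y hy
      exact h1 ⟨y, hy, rfl⟩
    have hS' : (S : Subgroup G) ≤ K'.map K.subtype := by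
      intro s hs
      have h1 : (⟨s, hSK hs⟩ : K) ∈ (S₁ : Subgroup K) := by rw [hS₁]; exact hs
      exact ⟨_, hS h1, rfl⟩
    have hlt' : K'.map K.subtype < K := by
      refine lt_of_le_of_ne (Subgroup.map_subtype_le _) ?_
      intro heq
      apply hne'
      rw [eq_top_iff]
      intro y _
      have h1 : (y : G) ∈ K'.map K.subtype := by rw [heq]; exact y.2
      obtain ⟨z, hz, hzy⟩ := h1
      have : z = y := Subtype.ext hzy
      rwa [← this]
    exact hmin (K'.map K.subtype) ⟨hS', (Subgroup.map_subtype_le _).trans hKH, hK'X⟩ hlt'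
  have hM₀ : X.subgroupOf K ≠ ⊤ := by
    intro htop
    apply hKX
    intro y hy
    have : (⟨y, hy⟩ : K) ∈ X.subgroupOf K := by rw [htop]; trivial
    exact this
  obtain ⟨C, hC, hle⟩ := (eq_top_or_exists_le_coatom (X.subgroupOf K)).resolve_left hM₀
  have hS₁X : (S₁ : Subgroup K) ≤ X.subgroupOf K := by
    rw [hS₁]
    intro y hy
    exact hSX hy
  apply Cfsg.Agent.Lib.PMinimalComp.isPMinimal_of_one S₁
  · intro hn
    apply hKX
    refine le_trans ?_ hN
    intro k hk
    apply Cfsg.Agent.Lib.Subnormal.mem_normalizer_of_conj_mem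
    intro s hs
    have h1 : (⟨s, hSK hs⟩ : K) ∈ (S₁ : Subgroup K) := by rw [hS₁]; exact hs
    have h2 := hn.conj_mem _ h1 ⟨k, hk⟩
    rw [hS₁] at h2
    exact h2
  · refine ⟨C, ⟨hC, hS₁X.trans hle⟩, ?_⟩
    rintro C' ⟨hC', hS'⟩
    have h1 : C' ≤ C := (hlt C' hC'.1 hS').trans hle
    exact ((hC'.le_iff.mp h1).resolve_left hC.1).symm

/-- The context. -/
structure Ctx (S : Sylow p G) (P L Y : Subgroup G) : Prop where
  hSP : (S : Subgroup G) ≤ P
  hPmin : IsPMinimal p ↥P
  hL : L = normalizer ((S : Subgroup G) : Set G) ⊔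
    ⨆ P' : {P' : Subgroup G // (S : Subgroup G) ≤ P' ∧ IsPMinimal p ↥P' ∧ P' ≠ P}, (P' : Subgroup G)
  hiso : ¬ (pCore p ↥L).map L.subtype ≤ (pCore p ↥P).map P.subtype
  hY : Y = normalClosure (((pResidual p ↥P).map P.subtype : Subgroup G) : Set G)

namespace Ctx

variable {S : Sylow p G} {P L Y : Subgroup G}

/-- `O^p(P)` as a subgroup of `G`. -/
abbrev Op (P : Subgroup G) (p : ℕ) : Subgroup G := (pResidual p ↥P).map P.subtype

theorem Op_le (P : Subgroup G) : Op P p ≤ P := Subgroup.map_subtype_le _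

theorem mem_Op {P : Subgroup G} {x : G} (hx : x ∈ P) (hc : (orderOf x).Coprime p) : x ∈ Op P p := by
  refine ⟨⟨x, hx⟩, mem_pResidual_of_coprime ?_, rfl⟩
  rw [← Subgroup.orderOf_coe]
  exact hc

theorem P_le_normalizer_Op (P : Subgroup G) : P ≤ normalizer ((Op P p : Subgroup G) : Set G) := by
  intro x hx
  apply Cfsg.Agent.Lib.Subnormal.mem_normalizer_of_conj_mem
  rintro _ ⟨y, hy, rfl⟩
  exact ⟨⟨x, hx⟩ * y * ⟨x, hx⟩⁻¹, (pResidual_normal p).conj_mem y hy _, rfl⟩

theorem hNL (h : Ctx S P L Y) : normalizer ((S : Subgroup G) : Set G) ≤ L := by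
  rw [h.hL]; exact le_sup_left

theorem hSL (h : Ctx S P L Y) : (S : Subgroup G) ≤ L := Subgroup.le_normalizer.trans h.hNL

theorem le_L_of_ne (h : Ctx S P L Y) {K : Subgroup G} (hSK : (S : Subgroup G) ≤ K)
    (hK : IsPMinimal p ↥K) (hne : K ≠ P) : K ≤ L := by
  rw [h.hL]
  refine le_sup_of_le_right ?_
  exact le_iSup (fun P' : {P' : Subgroup G // (S : Subgroup G) ≤ P' ∧ IsPMinimal p ↥P' ∧ P' ≠ P} =>
    (P' : Subgroup G)) ⟨K, hSK, hK, hne⟩

/-- Dichotomy in `G`. -/
theorem le_L (h : Ctx S P L Y) {H : Subgroup G} (hSH : (S : Subgroup G) ≤ H) (hPH : ¬ P ≤ H) :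
    H ≤ L := by
  apply le_of_gen S L H h.hNL _ hSH
  intro K hSK hK hKH
  apply h.le_L_of_ne hSK hK
  rintro rfl
  exact hPH hKH

theorem P_le (h : Ctx S P L Y) : P ≤ Op P p ⊔ (S : Subgroup G) := by
  have h1 := sylow_sup_pResidual (S.subtype h.hSP)
  intro x hx
  have h2 : (⟨x, hx⟩ : P) ∈ ((S.subtype h.hSP : Subgroup P) ⊔ pResidual p P : Subgroup P) := by
    rw [h1]; trivial
  have h3 : ((S.subtype h.hSP : Subgroup P) ⊔ pResidual p P : Subgroup P).map P.subtype ≤
      Op P p ⊔ (S : Subgroup G) := by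
    rw [Subgroup.map_sup]
    refine sup_le ?_ le_sup_left
    refine le_sup_of_le_right ?_
    rw [Sylow.coe_subtype]
    rintro _ ⟨y, hy, rfl⟩
    exact hy
  exact h3 ⟨_, h2, rfl⟩

theorem Op_le_Y (h : Ctx S P L Y) : Op P p ≤ Y := by
  rw [h.hY]
  exact subset_normalClosure

theorem Y_normal (h : Ctx S P L Y) : Y.Normal := by
  rw [h.hY]
  exact normalClosure_normal

theorem sup_top (h : Ctx S P L Y) : Y ⊔ L = ⊤ := by
  rw [eq_top_iff]
  apply le_of_gen S (Y ⊔ L) ⊤ (h.hNL.trans le_sup_right) _ le_top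
  intro K hSK hK _
  by_cases hne : K = P
  · subst hne
    refine h.P_le.trans (sup_le (h.Op_le_Y.trans le_sup_left) (h.hSL.trans le_sup_right))
  · exact (h.le_L_of_ne hSK hK hne).trans le_sup_right

/-- `O_p(L)`. -/
theorem R_le_S (h : Ctx S P L Y) : pCoreOf p L ≤ (S : Subgroup G) := by
  rintro _ ⟨x, hx, rfl⟩
  have h1 := pCore_le_sylow p (S.subtype h.hSL)
  have h2 := h1 hx
  rw [Sylow.coe_subtype] at h2
  exact h2

/-- The map to `G / O_p(G)`. -/
abbrev π (G : Type*) [Group G] (p : ℕ) : G →* G ⧸ pCore p G := QuotientGroup.mk' (pCore p G)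

theorem π_surj : Function.Surjective (π G p) := QuotientGroup.mk'_surjective _

theorem mem_normalizer_map {K : Subgroup G} {g : G} (hg : g ∈ normalizer (K : Set G)) :
    π G p g ∈ normalizer ((K.map (π G p) : Subgroup _) : Set _) := by
  apply Cfsg.Agent.Lib.Subnormal.mem_normalizer_of_conj_mem
  rintro _ ⟨x, hx, rfl⟩
  refine ⟨g * x * g⁻¹, (mem_normalizer_iff.mp hg x).mp hx, ?_⟩
  simp [map_mul, map_inv]

/-- The abstract hypotheses. -/
theorem hyp (h : Ctx S P L Y) :
    Hyp p ((S : Subgroup G).map (π G p)) ((pCoreOf p L).map (π G p)) ((Op P p).map (π G p))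
      (L.map (π G p)) := by
  refine ⟨pCore_quotient_pCore p, S.isPGroup'.map _, Subgroup.map_mono h.R_le_S,
    Subgroup.map_mono h.hSL, ?_, ?_, ?_, ?_, ?_, ?_⟩
  · rintro _ ⟨l, hl, rfl⟩
    exact mem_normalizer_map (le_normalizer_pCoreOf p L hl)
  · rintro _ ⟨s, hs, rfl⟩
    exact mem_normalizer_map (P_le_normalizer_Op P (h.hSP hs))
  · -- generated by elements of order prime to `p`
    intro K hK hle
    have hmap : (Op P p).map (π G p) = (pResidual p P).map ((π G p).comp P.subtype) := by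
      rw [Subgroup.map_map]
    rw [hmap, Subgroup.map_le_iff_le_comap, pResidual, Subgroup.closure_le]
    intro z hz
    have hz' : (orderOf z).Coprime p := hz
    have hc : (orderOf (π G p (z : G))).Coprime p := by
      apply Nat.Coprime.coprime_dvd_left _ hz'
      have : orderOf (π G p (z : G)) ∣ orderOf (z : G) := orderOf_map_dvd _ _
      rwa [Subgroup.orderOf_coe] at this
    have hmem : π G p (z : G) ∈ (Op P p).map (π G p) := by
      exact ⟨z, ⟨z, mem_pResidual_of_coprime hz', rfl⟩, rfl⟩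
    exact mem_of_mem_sup_of_coprime (S.isPGroup'.map _) hK (hle hmem) hc
  · -- dichotomy
    intro K
    by_cases hPH : P ≤ (K ⊔ (S : Subgroup G).map (π G p)).comap (π G p)
    · left
      rw [Subgroup.map_le_iff_le_comap]
      exact (Op_le P).trans hPH
    · right
      have hSH : (S : Subgroup G) ≤ (K ⊔ (S : Subgroup G).map (π G p)).comap (π G p) := by
        rw [← Subgroup.map_le_iff_le_comap]
        exact le_sup_right
      have hle := h.le_L hSH hPH
      intro k hk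
      obtain ⟨g, rfl⟩ := π_surj k
      have hg : g ∈ L := hle (Subgroup.mem_sup_left hk)
      exact mem_normalizer_map (le_normalizer_pCoreOf p L hg)
  · -- isolated
    intro hT
    apply h.hiso
    set Rh : Subgroup (G ⧸ pCore p G) := (pCoreOf p L).map (π G p) with hRh
    have hSn : (S : Subgroup G).map (π G p) ≤ normalizer (Rh : Set _) :=
      (Subgroup.map_mono h.hSL).trans (by
        rintro _ ⟨l, hl, rfl⟩
        exact mem_normalizer_map (le_normalizer_pCoreOf p L hl))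
    have hPN : P ≤ (normalizer (Rh : Set (G ⧸ pCore p G))).comap (π G p) := by
      refine h.P_le.trans (sup_le ?_ ?_)
      · rw [← Subgroup.map_le_iff_le_comap]; exact hT
      · rw [← Subgroup.map_le_iff_le_comap]; exact hSn
    have hRS : Rh.comap (π G p) ≤ (S : Subgroup G) := by
      intro x hx
      obtain ⟨r, hr, hrx⟩ := hx
      have h1 : r⁻¹ * x ∈ pCore p G := by
        have : π G p (r⁻¹ * x) = 1 := by
          rw [map_mul, map_inv, hrx]; simp
        rwa [← QuotientGroup.ker_mk' (pCore p G), MonoidHom.mem_ker]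
      have h2 : r⁻¹ * x ∈ (S : Subgroup G) := pCore_le_sylow p S h1
      have h3 : x = r * (r⁻¹ * x) := by group
      rw [h3]
      exact Subgroup.mul_mem _ (h.R_le_S hr) h2
    have hle : pCoreOf p L ≤ pCoreOf p P := by
      have h1 : pCoreOf p L ≤ Rh.comap (π G p) := by
        rw [← Subgroup.map_le_iff_le_comap]
      refine h1.trans ?_
      apply le_pCoreOf (hRS.trans h.hSP)
      · intro g hg
        apply Cfsg.Agent.Lib.Subnormal.mem_normalizer_of_conj_mem
        intro x hx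
        rw [mem_comap] at hx ⊢
        have hg' := hPN hg
        rw [mem_comap] at hg'
        rw [map_mul, map_mul, map_inv]
        exact (mem_normalizer_iff.mp hg' _).mp hx
      · exact (S.isPGroup').to_le hRS
    exact hle
  · -- top
    have h1 : normalClosure (((Op P p).map (π G p) : Subgroup _) : Set _) = Y.map (π G p) := by
      rw [h.hY, Subgroup.map_normalClosure _ _ π_surj]
      rfl
    rw [h1, ← Subgroup.map_sup, h.sup_top, Subgroup.map_top_of_surjective _ π_surj]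

/-- `normalClosure` of the image is the image of `Y`. -/
theorem A_eq (h : Ctx S P L Y) :
    normalClosure (((Op P p).map (π G p) : Subgroup _) : Set _) = Y.map (π G p) := by
  rw [h.hY, Subgroup.map_normalClosure _ _ π_surj]
  rfl

/-- First assertion of the second statement: `O^p(P) ≤ F*` modulo `O_p(G)`. -/
theorem le_fstar (h : Ctx S P L Y) :
    Op P p ≤ (generalizedFittingSubgroup (G ⧸ pCore p G)).comap (π G p) := by
  rw [← Subgroup.map_le_iff_le_comap]
  exact h.hyp.le_fstar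

/-- Isolation in the subgroup `YS`. -/
theorem iso_sub (h : Ctx S P L Y) :
    ¬ (pCore p ↥((normalizer ((S : Subgroup G) : Set G) ⊓ (Y ⊔ (S : Subgroup G))) ⊔
          ⨆ P' : {P' : Subgroup G // (S : Subgroup G) ≤ P' ∧ P' ≤ Y ⊔ (S : Subgroup G) ∧ IsPMinimal p ↥P' ∧ P' ≠ P}, (P' : Subgroup G))).map
        (Subgroup.subtype _) ≤ (pCore p ↥P).map P.subtype := by
  intro hle
  apply h.hiso
  set L₀ : Subgroup G := (normalizer ((S : Subgroup G) : Set G) ⊓ (Y ⊔ (S : Subgroup G))) ⊔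
          ⨆ P' : {P' : Subgroup G // (S : Subgroup G) ≤ P' ∧ P' ≤ Y ⊔ (S : Subgroup G) ∧ IsPMinimal p ↥P' ∧ P' ≠ P}, (P' : Subgroup G) with hL₀
  have hL₀L : L₀ ≤ L := by
    refine sup_le (inf_le_left.trans h.hNL) (iSup_le fun P' => ?_)
    exact h.le_L_of_ne P'.2.1 P'.2.2.2.1 P'.2.2.2.2
  have hSL₀ : (S : Subgroup G) ≤ L₀ :=
    (le_inf Subgroup.le_normalizer le_sup_right).trans le_sup_left
  have h1 : pCoreOf p L ≤ pCoreOf p L₀ :=
    le_pCoreOf (h.R_le_S.trans hSL₀) (hL₀L.trans (le_normalizer_pCoreOf p L)) (isPGroup_pCoreOf p L)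
  exact h1.trans hle


end Ctx

section iota

open Ctx

variable (Y : Subgroup G) [hYn : Y.Normal]

theorem core_le_ker : pCore p ↥Y ≤ ((π G p).comp Y.subtype).ker := by
  intro y hy
  rw [MonoidHom.mem_ker]
  have h1 : (y : G) ∈ pCore p G := map_pCore_le_of_isSubnormal hYn.isSubnormal ⟨y, hy, rfl⟩
  show π G p (y : G) = 1
  exact (QuotientGroup.eq_one_iff _).mpr h1

/-- The embedding of `Y / O_p(Y)` in `G / O_p(G)`. -/
noncomputable def ι : (↥Y ⧸ pCore p ↥Y) →* (G ⧸ pCore p G) :=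
  QuotientGroup.lift (pCore p ↥Y) ((π G p).comp Y.subtype) (core_le_ker Y)

omit [Finite G] in
theorem ι_mk [Finite G] (y : ↥Y) : ι (p := p) Y (y : ↥Y ⧸ pCore p ↥Y) = π G p (y : G) := rfl

theorem ι_inj : Function.Injective (ι (p := p) Y) := by
  rw [injective_iff_map_eq_one]
  intro q hq
  induction q using QuotientGroup.induction_on with
  | H y =>
    rw [ι_mk] at hq
    have h1 : (y : G) ∈ pCore p G := (QuotientGroup.eq_one_iff _).mp hq
    have h2 : (y : G) ∈ (pCore p ↥Y).map Y.subtype := by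
      rw [map_pCore_eq_of_isSubnormal hYn.isSubnormal]
      exact ⟨y.2, h1⟩
    obtain ⟨z, hz, hzy⟩ := h2
    have : z = y := Subtype.ext hzy
    rw [← this]
    exact (QuotientGroup.eq_one_iff _).mpr hz

theorem ι_range : (ι (p := p) Y).range = Y.map (π G p) := by
  ext x
  constructor
  · rintro ⟨q, rfl⟩
    induction q using QuotientGroup.induction_on with
    | H y => exact ⟨y, y.2, rfl⟩
  · rintro ⟨y, hy, rfl⟩
    exact ⟨((⟨y, hy⟩ : ↥Y) : ↥Y ⧸ pCore p ↥Y), rfl⟩

theorem le_of_map_le {X₁ X₂ : Subgroup G} (h₁ : X₁ ≤ Y) (h₂ : X₂ ≤ Y)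
    (hc : (pCore p ↥Y).map Y.subtype ≤ X₂) (he : X₁.map (π G p) ≤ X₂.map (π G p)) : X₁ ≤ X₂ := by
  intro x hx
  obtain ⟨x', hx', hxx⟩ := he ⟨x, hx, rfl⟩
  have h1 : x'⁻¹ * x ∈ pCore p G := by
    have : π G p (x'⁻¹ * x) = 1 := by
      rw [map_mul, map_inv, ← hxx]; simp
    exact (QuotientGroup.eq_one_iff _).mp this
  have h2 : x'⁻¹ * x ∈ (pCore p ↥Y).map Y.subtype := by
    rw [map_pCore_eq_of_isSubnormal hYn.isSubnormal]
    exact ⟨Y.mul_mem (Y.inv_mem (h₂ hx')) (h₁ hx), h1⟩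
  have h3 : x = x' * (x'⁻¹ * x) := by group
  rw [h3]
  exact X₂.mul_mem hx' (hc h2)

/-- The preimage in `G` of a subgroup of `Y / O_p(Y)`. -/
abbrev tilde (K : Subgroup (↥Y ⧸ pCore p ↥Y)) : Subgroup G :=
  (K.comap (QuotientGroup.mk' (pCore p ↥Y))).map Y.subtype

theorem tilde_le (K : Subgroup (↥Y ⧸ pCore p ↥Y)) : tilde (p := p) Y K ≤ Y := Subgroup.map_subtype_le _

theorem core_le_tilde (K : Subgroup (↥Y ⧸ pCore p ↥Y)) :
    (pCore p ↥Y).map Y.subtype ≤ tilde (p := p) Y K := by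
  apply Subgroup.map_mono
  intro y hy
  rw [mem_comap]
  have : QuotientGroup.mk' (pCore p ↥Y) y = 1 := (QuotientGroup.eq_one_iff _).mpr hy
  rw [this]
  exact K.one_mem

theorem map_tilde (K : Subgroup (↥Y ⧸ pCore p ↥Y)) :
    (tilde (p := p) Y K).map (π G p) = K.map (ι (p := p) Y) := by
  have h1 : (π G p).comp Y.subtype = (ι (p := p) Y).comp (QuotientGroup.mk' (pCore p ↥Y)) := rfl
  rw [Subgroup.map_map, h1, ← Subgroup.map_map,
    Subgroup.map_comap_eq_self_of_surjective (QuotientGroup.mk'_surjective _)]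

theorem comp_map_ι {K : Subgroup (↥Y ⧸ pCore p ↥Y)} (hK : IsComponent K) :
    IsComponent (K.map (ι (p := p) Y)) := by
  let e := MonoidHom.ofInjective (ι_inj (p := p) Y)
  have hrn : (ι (p := p) Y).range.Normal := by
    rw [ι_range]
    exact hYn.map _ π_surj
  have h1 : IsComponent ((K.map e.toMonoidHom).map (ι (p := p) Y).range.subtype) :=
    comp_map_subtype hrn.isSubnormal (comp_map_equiv e hK)
  have h2 : (K.map e.toMonoidHom).map (ι (p := p) Y).range.subtype = K.map (ι (p := p) Y) := by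
    rw [Subgroup.map_map]
    rfl
  rwa [h2] at h1

theorem exists_comp_of_le {D : Subgroup (G ⧸ pCore p G)} (hD : IsComponent D) (hle : D ≤ Y.map (π G p)) :
    ∃ K : Subgroup (↥Y ⧸ pCore p ↥Y), IsComponent K ∧ K.map (ι (p := p) Y) = D := by
  let e := MonoidHom.ofInjective (ι_inj (p := p) Y)
  have hle' : D ≤ (ι (p := p) Y).range := by rwa [ι_range]
  refine ⟨(D.subgroupOf (ι (p := p) Y).range).map e.symm.toMonoidHom,
    comp_map_equiv e.symm (comp_subgroupOf hD hle'), ?_⟩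
  ext x
  constructor
  · rintro ⟨_, ⟨y, hy, rfl⟩, rfl⟩
    have h1 : (ι (p := p) Y) (e.symm y) = (y : G ⧸ pCore p G) := by
      have h2 : e (e.symm y) = y := e.apply_symm_apply y
      exact congrArg Subtype.val h2
    show (ι (p := p) Y) (e.symm y) ∈ D
    rw [h1]
    exact hy
  · intro hx
    have hxr := hle' hx
    refine ⟨e.symm ⟨x, hxr⟩, ⟨⟨x, hxr⟩, hx, rfl⟩, ?_⟩
    have h2 : e (e.symm ⟨x, hxr⟩) = ⟨x, hxr⟩ := e.apply_symm_apply _
    exact congrArg Subtype.val h2

theorem card_quot : Nat.card (↥Y ⧸ pCore p ↥Y) = Nat.card ↥(Y.map (π G p)) := by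
  rw [← ι_range (p := p) Y]
  exact Nat.card_congr (MonoidHom.ofInjective (ι_inj (p := p) Y)).toEquiv

end iota

namespace Ctx

variable {S : Sylow p G} {P L Y : Subgroup G}

/-- If `O^p(P)` is `O_p(G)`-congruent to `Y`, then it equals `Y`. -/
theorem Op_eq_of_map_eq (h : Ctx S P L Y) (he : (Op P p).map (π G p) = Y.map (π G p)) :
    Op P p = Y := by
  haveI hYn : Y.Normal := h.Y_normal
  have hYP : Y ≤ P := by
    intro y hy
    have h1 : π G p y ∈ (Op P p).map (π G p) := by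
      rw [he]
      exact ⟨y, hy, rfl⟩
    obtain ⟨x, hx, hxy⟩ := h1
    have h2 : x⁻¹ * y ∈ pCore p G := by
      have : π G p (x⁻¹ * y) = 1 := by
        rw [map_mul, map_inv, hxy]; simp
      exact (QuotientGroup.eq_one_iff _).mp this
    have h3 : x⁻¹ * y ∈ P := h.hSP (pCore_le_sylow p S h2)
    have h4 : y = x * (x⁻¹ * y) := by group
    rw [h4]
    exact P.mul_mem (Op_le P hx) h3
  have hOpN : (Op P p).Normal := by
    constructor
    intro n hn g
    have key : Op P p ≤ (Op P p).comap (MulAut.conj g).toMonoidHom := by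
      rw [Subgroup.map_le_iff_le_comap, pResidual, Subgroup.closure_le]
      intro z hz
      have hz' : (orderOf z).Coprime p := hz
      show g * (z : G) * g⁻¹ ∈ Op P p
      have h1 : (z : G) ∈ Op P p := ⟨z, mem_pResidual_of_coprime hz', rfl⟩
      have h2 : g * (z : G) * g⁻¹ ∈ Y := hYn.conj_mem _ (h.Op_le_Y h1) g
      apply mem_Op (hYP h2)
      have h3 : orderOf (g * (z : G) * g⁻¹) = orderOf (z : G) := MulEquiv.orderOf_eq (MulAut.conj g) _
      rw [h3, Subgroup.orderOf_coe]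
      exact hz'
    exact key hn
  apply le_antisymm h.Op_le_Y
  rw [h.hY]
  exact normalClosure_le_normal le_rfl

/-- Outcome in case A. -/
theorem caseA (h : Ctx S P L Y) (hF : (Op P p).map (π G p) ≤ fittingSubgroup (G ⧸ pCore p G)) :
    Op P p = Y ∧ ∃ t : ℕ, t.Prime ∧ t ≠ p ∧ IsPGroup t (↥Y ⧸ pCore p ↥Y) ∧
      ∃ _ : Group.IsNilpotent (↥Y ⧸ pCore p ↥Y), Group.nilpotencyClass (↥Y ⧸ pCore p ↥Y) ≤ 2 := by
  haveI hYn : Y.Normal := h.Y_normal
  obtain ⟨h1, ⟨t, htp, hne, ht⟩, h2⟩ := h.hyp.caseA hF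
  rw [h.A_eq] at h1 ht h2
  refine ⟨h.Op_eq_of_map_eq h1, t, htp, hne, ?_⟩
  have hmem : ∀ q : ↥Y ⧸ pCore p ↥Y, ι (p := p) Y q ∈ Y.map (π G p) := by
    intro q
    rw [← ι_range (p := p) Y]
    exact ⟨q, rfl⟩
  constructor
  · intro q
    obtain ⟨k, hk⟩ := ht ⟨_, hmem q⟩
    refine ⟨k, ι_inj (p := p) Y ?_⟩
    rw [map_pow, map_one]
    exact congrArg Subtype.val hk
  · have hlcs : (⊤ : Subgroup (↥Y ⧸ pCore p ↥Y)).lowerCentralSeries 2 = ⊥ := by
      rw [show (2 : ℕ) = 1 + 1 from rfl, Subgroup.lowerCentralSeries_succ,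
        Subgroup.top_lowerCentralSeries_one, ← le_bot_iff, Subgroup.commutator_le]
      intro x hx c _
      rw [mem_bot]
      apply ι_inj (p := p) Y
      have hx' : ι (p := p) Y x ∈ ⁅Y.map (π G p), Y.map (π G p)⁆ := by
        have h4 : commutator (↥Y ⧸ pCore p ↥Y) ≤
            (⁅Y.map (π G p), Y.map (π G p)⁆ : Subgroup _).comap (ι (p := p) Y) := by
          rw [commutator_def, Subgroup.commutator_le]
          intro a _ b _
          rw [mem_comap, map_commutatorElement]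
          exact Subgroup.commutator_mem_commutator (hmem a) (hmem b)
        exact h4 hx
      rw [map_commutatorElement, map_one]
      have h5 := Subgroup.commutator_mem_commutator hx' (hmem c)
      rw [h2, mem_bot] at h5
      exact h5
    have hnil : Group.IsNilpotent (↥Y ⧸ pCore p ↥Y) :=
      Subgroup.nilpotent_iff_lowerCentralSeries.mpr ⟨2, hlcs⟩
    exact ⟨hnil, Subgroup.lowerCentralSeries_eq_bot_iff_nilpotencyClass_le.mp hlcs⟩

/-- Outcome in case B. -/
theorem caseB (h : Ctx S P L Y) (hF : ¬ (Op P p).map (π G p) ≤ fittingSubgroup (G ⧸ pCore p G)) :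
    p ∣ Nat.card (↥Y ⧸ pCore p ↥Y) ∧ layer (↥Y ⧸ pCore p ↥Y) = ⊤ ∧
      ∀ K₁ K₂ : Subgroup (↥Y ⧸ pCore p ↥Y), IsComponent K₁ → IsComponent K₂ →
        ∃ s ∈ (S : Subgroup G), ((K₂.comap (QuotientGroup.mk' (pCore p ↥Y))).map Y.subtype) =
          (((K₁.comap (QuotientGroup.mk' (pCore p ↥Y))).map Y.subtype)).map (MulAut.conj s).toMonoidHom := by
  classical
  haveI hYn : Y.Normal := h.Y_normal
  obtain ⟨C, hC, hAeq, hpd⟩ := h.hyp.caseB hF
  rw [h.A_eq] at hAeq hpd
  set Sh : Subgroup (G ⧸ pCore p G) := (S : Subgroup G).map (π G p) with hSh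
  have hmem : ∀ q : ↥Y ⧸ pCore p ↥Y, ι (p := p) Y q ∈ Y.map (π G p) := by
    intro q
    rw [← ι_range (p := p) Y]
    exact ⟨q, rfl⟩
  have hconjle : ∀ s : ↥Sh, C.map (MulAut.conj (s : G ⧸ pCore p G)).toMonoidHom ≤ Y.map (π G p) := by
    intro s
    rw [hAeq]
    exact le_iSup (fun s : ↥Sh => C.map (MulAut.conj (s : G ⧸ pCore p G)).toMonoidHom) s
  -- components of `Γ` inside `A`
  have hcompA : ∀ D : Subgroup (G ⧸ pCore p G), IsComponent D → D ≤ Y.map (π G p) →
      ∃ s : ↥Sh, D = C.map (MulAut.conj (s : G ⧸ pCore p G)).toMonoidHom := by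
    intro D hD hle
    by_contra hne
    push Not at hne
    apply comp_not_comm hD
    have hDc : Y.map (π G p) ≤ centralizer (D : Set (G ⧸ pCore p G)) := by
      rw [hAeq]
      apply iSup_le
      intro s
      exact comp_le_centralizer_of_ne (comp_conj hC s) hD (hne s).symm
    exact ⟨⟨fun a b => Subtype.ext (mem_centralizer_iff.mp (hDc (hle a.2)) b b.2).symm⟩⟩
  refine ⟨?_, ?_, ?_⟩
  · rw [card_quot]
    exact hpd
  · -- the layer
    have hle : Y.map (π G p) ≤ (layer (↥Y ⧸ pCore p ↥Y)).map (ι (p := p) Y) := by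
      rw [hAeq]
      apply iSup_le
      intro s
      obtain ⟨K, hK, hKD⟩ := exists_comp_of_le (p := p) Y (comp_conj hC s) (hconjle s)
      rw [← hKD]
      exact Subgroup.map_mono (comp_le_layer hK)
    rw [eq_top_iff]
    intro q _
    obtain ⟨z, hz, hzq⟩ := hle (hmem q)
    have : z = q := ι_inj (p := p) Y hzq
    rwa [← this]
  · intro K₁ K₂ hK₁ hK₂
    obtain ⟨s₁, hs₁⟩ := hcompA _ (comp_map_ι Y hK₁) (by
      rintro _ ⟨q, -, rfl⟩; exact hmem q)
    obtain ⟨s₂, hs₂⟩ := hcompA _ (comp_map_ι Y hK₂) (by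
      rintro _ ⟨q, -, rfl⟩; exact hmem q)
    obtain ⟨s, hs, hss⟩ : ∃ s ∈ (S : Subgroup G), π G p s = (s₂ : G ⧸ pCore p G) * (s₁ : G ⧸ pCore p G)⁻¹ :=
      (Sh.mul_mem s₂.2 (Sh.inv_mem s₁.2))
    refine ⟨s, hs, ?_⟩
    change tilde (p := p) Y K₂ = (tilde (p := p) Y K₁).map (MulAut.conj s).toMonoidHom
    have hYconj : ∀ X : Subgroup G, X ≤ Y → X.map (MulAut.conj s).toMonoidHom ≤ Y := by
      rintro X hX _ ⟨x, hx, rfl⟩
      exact hYn.conj_mem x (hX hx) s
    have hcoreN : ((pCore p ↥Y).map Y.subtype).Normal :=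
      normal_map_of_characteristic hYn inferInstance
    have hmap1 : ((tilde (p := p) Y K₁).map (MulAut.conj s).toMonoidHom).map (π G p) =
        (K₁.map (ι (p := p) Y)).map (MulAut.conj (π G p s)).toMonoidHom := by
      rw [← map_tilde]
      ext x
      simp only [mem_map]
      constructor
      · rintro ⟨_, ⟨y, hy, rfl⟩, rfl⟩
        exact ⟨_, ⟨y, hy, rfl⟩, by simp [map_mul, map_inv]⟩
      · rintro ⟨_, ⟨y, hy, rfl⟩, rfl⟩
        exact ⟨_, ⟨y, hy, rfl⟩, by simp [map_mul, map_inv]⟩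
    have hmain : K₂.map (ι (p := p) Y) =
        (K₁.map (ι (p := p) Y)).map (MulAut.conj (π G p s)).toMonoidHom := by
      rw [hs₂, hs₁, hss, Subgroup.map_map]
      congr 1
      ext x
      simp [mul_assoc]
    have hmap2 : (tilde (p := p) Y K₂).map (π G p) =
        ((tilde (p := p) Y K₁).map (MulAut.conj s).toMonoidHom).map (π G p) := by
      rw [hmap1, map_tilde, hmain]
    apply le_antisymm
    · apply le_of_map_le (p := p) Y (tilde_le Y K₂) (hYconj _ (tilde_le Y K₁)) _ hmap2.le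
      intro x hx
      refine ⟨s⁻¹ * x * s, core_le_tilde Y K₁ ?_, ?_⟩
      · have := hcoreN.conj_mem x hx s⁻¹
        simpa using this
      · show s * (s⁻¹ * x * s) * s⁻¹ = x
        group
    · exact le_of_map_le (p := p) Y (hYconj _ (tilde_le Y K₁)) (tilde_le Y K₂) (core_le_tilde Y K₂) hmap2.ge

/-- A solvable `Y` forces case A. -/
theorem le_fitting_of_solvable (h : Ctx S P L Y) (hs : Group.IsSolvable ↥Y) :
    (Op P p).map (π G p) ≤ fittingSubgroup (G ⧸ pCore p G) := by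
  haveI hYn : Y.Normal := h.Y_normal
  set A : Subgroup (G ⧸ pCore p G) := Y.map (π G p) with hA
  haveI hAn : A.Normal := hYn.map _ π_surj
  have hAs : Group.IsSolvable ↥A := by
    haveI := hs
    exact Group.isSolvable_of_surjective ((π G p).subgroupMap_surjective Y)
  have hlc : layer (G ⧸ pCore p G) ≤ centralizer (A : Set (G ⧸ pCore p G)) := by
    refine sSup_le fun D hD => ?_
    rcases comp_le_or_commute hD hAn.isSubnormal with h1 | h1
    · exact absurd (Group.isSolvable_of_isSolvable_injective (Subgroup.inclusion_injective h1))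
        (comp_not_solvable hD)
    · exact Subgroup.commutator_eq_bot_iff_le_centralizer.mp h1
  have hZ : layer (G ⧸ pCore p G) ⊓ centralizer (layer (G ⧸ pCore p G) : Set (G ⧸ pCore p G)) ≤
      fittingSubgroup (G ⧸ pCore p G) := by
    apply le_fitting_of_central (K := layer (G ⧸ pCore p G)) (layer_normal (G := G ⧸ pCore p G)).isSubnormal
      inf_le_left
    rw [Subgroup.le_centralizer_iff]
    exact inf_le_right
  have hlF : fittingSubgroup (G ⧸ pCore p G) ≤ centralizer (layer (G ⧸ pCore p G) : Set (G ⧸ pCore p G)) := by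
    have h1 : ⁅fittingSubgroup (G ⧸ pCore p G), layer (G ⧸ pCore p G)⁆ = ⊥ := by
      rw [Subgroup.commutator_comm]
      exact layer_commute_fitting
    exact Subgroup.commutator_eq_bot_iff_le_centralizer.mp h1
  intro a ha
  have haF := h.hyp.le_fstar ha
  have haA : a ∈ A := by
    rw [hA, ← h.A_eq]
    exact subset_normalClosure ha
  have h2 : a ∈ ((layer (G ⧸ pCore p G) ⊔ fittingSubgroup (G ⧸ pCore p G) : Subgroup _) : Set (G ⧸ pCore p G)) := haF
  rw [Subgroup.mul_normal] at h2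
  obtain ⟨e, he, f, hf, hef⟩ := h2
  have hef' : e * f = a := hef
  have heZ : e ∈ layer (G ⧸ pCore p G) ⊓ centralizer (layer (G ⧸ pCore p G) : Set (G ⧸ pCore p G)) := by
    refine ⟨he, ?_⟩
    have h3 : e = a * f⁻¹ := by rw [← hef']; group
    rw [h3]
    refine Subgroup.mul_mem _ ?_ (Subgroup.inv_mem _ (hlF hf))
    rw [mem_centralizer_iff]
    intro l hl
    exact (mem_centralizer_iff.mp (hlc hl) a haA).symm
  rw [← hef']
  exact Subgroup.mul_mem _ (hZ heZ) hf

end Ctx

end Cfsg.Agent.Lib.IsoPMinLift
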