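import Mathlib
import Cfsg.Agent.Lib.CoprimeClass
import Cfsg.Agent.Lib.CentTools
import Cfsg.Agent.Lib.Derangement

/-!
# Basic tools for Ito's theorem on class sizes `{1, n, m}`

`QE q u`: `u` is a `q`-element. Commuting coprime elements; commutators central; splitting an
element into primary parts; `qp q D _`, the subgroup of `q`-elements of `D`, when these commute;
the valuations `vq q D` of orders of subgroups.
-/

set_option autoImplicit false
set_option linter.unusedSectionVars false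
set_option linter.unusedVariables false

namespace Cfsg.Agent.Lib.ItoBasic

open Subgroup
open Cfsg.Agent.Lib.CoprimeClass (cs mem_cent cs_eq_one_iff cs_conj cs_ne_zero)
open Cfsg.Agent.Lib.CentTools (Cn mem_Cn Cn_mul)

variable {H : Type*} [Group H]

/-- `u` is a `q`-element. -/
def QE (q : ℕ) (u : H) : Prop := ∃ e : ℕ, u ^ (q ^ e) = 1

theorem QE.one (q : ℕ) : QE q (1 : H) := ⟨0, by simp⟩

theorem QE.pow {q : ℕ} {u : H} (h : QE q u) (i : ℕ) : QE q (u ^ i) := by
  obtain ⟨e, he⟩ := h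
  exact ⟨e, by rw [← pow_mul, mul_comm, pow_mul, he, one_pow]⟩

theorem QE.zpow {q : ℕ} {u : H} (h : QE q u) (i : ℤ) : QE q (u ^ i) := by
  obtain ⟨e, he⟩ := h
  refine ⟨e, ?_⟩
  rw [← zpow_natCast, ← zpow_mul, mul_comm, zpow_mul, zpow_natCast, he, one_zpow]

theorem QE.inv {q : ℕ} {u : H} (h : QE q u) : QE q u⁻¹ := by
  obtain ⟨e, he⟩ := h
  exact ⟨e, by rw [inv_pow, he, inv_one]⟩

theorem QE.conj {q : ℕ} {u : H} (h : QE q u) (g : H) : QE q (g * u * g⁻¹) := by
  obtain ⟨e, he⟩ := h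
  exact ⟨e, by rw [conj_pow, he]; group⟩

theorem QE.mul {q : ℕ} {u v : H} (hu : QE q u) (hv : QE q v) (hc : u * v = v * u) :
    QE q (u * v) := by
  obtain ⟨e, he⟩ := hu
  obtain ⟨f, hf⟩ := hv
  refine ⟨e + f, ?_⟩
  have hcc : Commute u v := hc
  rw [hcc.mul_pow, pow_add, pow_mul, he, one_pow, one_mul, mul_comm (q ^ e), pow_mul, hf, one_pow]

theorem QE.map {K : Type*} [Group K] (f : H →* K) {q : ℕ} {u : H} (h : QE q u) : QE q (f u) := by
  obtain ⟨e, he⟩ := h
  exact ⟨e, by rw [← map_pow, he, map_one]⟩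

theorem qe_subtype {A : Subgroup H} {q : ℕ} {u : A} : QE q u ↔ QE q (u : H) := by
  constructor
  · rintro ⟨e, he⟩
    exact ⟨e, by simpa using congrArg Subtype.val he⟩
  · rintro ⟨e, he⟩
    exact ⟨e, Subtype.ext (by simpa using he)⟩

theorem QE.orderOf_dvd {q : ℕ} {u : H} (h : QE q u) : ∃ e, orderOf u ∣ q ^ e := by
  obtain ⟨e, he⟩ := h
  exact ⟨e, orderOf_dvd_of_pow_eq_one he⟩

theorem QE.coprime_right {q : ℕ} {u d : H} (hu : QE q u) (hd : (orderOf d).Coprime q) :
    (orderOf u).Coprime (orderOf d) := by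
  obtain ⟨e, he⟩ := hu.orderOf_dvd
  exact Nat.Coprime.coprime_dvd_left he (hd.symm.pow_left e)

theorem QE.coprime_of_ne {q t : ℕ} (hq : q.Prime) (ht : t.Prime) (hne : q ≠ t) {u d : H}
    (hu : QE q u) (hd : QE t d) : (orderOf u).Coprime (orderOf d) := by
  obtain ⟨e, he⟩ := hu.orderOf_dvd
  obtain ⟨f, hf⟩ := hd.orderOf_dvd
  exact Nat.Coprime.coprime_dvd_left he (Nat.Coprime.coprime_dvd_right hf
    (Nat.Coprime.pow _ _ ((Nat.coprime_primes hq ht).2 hne)))

theorem QE.coprime_prime {q t : ℕ} (hq : q.Prime) (ht : t.Prime) (hne : q ≠ t) {u : H}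
    (hu : QE q u) : (orderOf u).Coprime t := by
  obtain ⟨e, he⟩ := hu.orderOf_dvd
  exact Nat.Coprime.coprime_dvd_left he (Nat.Coprime.pow_left _ ((Nat.coprime_primes hq ht).2 hne))

theorem eq_one_of_coprime_orders {x : H} {a b : ℕ} (hc : a.Coprime b) (ha : x ^ a = 1)
    (hb : x ^ b = 1) : x = 1 := by
  have h1 := orderOf_dvd_of_pow_eq_one ha
  have h2 := orderOf_dvd_of_pow_eq_one hb
  have h3 : orderOf x ∣ 1 := by
    have := Nat.dvd_gcd h1 h2
    rwa [hc.gcd_eq_one] at this
  exact orderOf_eq_one_iff.1 (Nat.dvd_one.1 h3)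

/-- A `q`-element killed by an exponent prime to `q` is trivial. -/
theorem QE.eq_one_of_pow {q m : ℕ} (hq : q.Prime) {x : H} (hx : QE q x) (hm : m.Coprime q)
    (h : x ^ m = 1) : x = 1 := by
  obtain ⟨e, he⟩ := hx
  exact eq_one_of_coprime_orders (hm.symm.pow_left e) he h

/-- Two elements of coprime orders whose commutator is central commute. -/
theorem comm_of_central_comm {a d : H} (hc : a * d * a⁻¹ * d⁻¹ ∈ center H)
    (hco : (orderOf a).Coprime (orderOf d)) : a * d = d * a := by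
  set z := a * d * a⁻¹ * d⁻¹ with hz
  have hzc : ∀ g : H, g * z = z * g := fun g => (mem_center_iff.1 hc g)
  have h1 : a * d * a⁻¹ = z * d := by rw [hz]; group
  have h2 : ∀ i : ℕ, a ^ i * d * (a ^ i)⁻¹ = z ^ i * d := by
    intro i
    induction i with
    | zero => simp
    | succ i ih =>
      calc a ^ (i + 1) * d * (a ^ (i + 1))⁻¹ = a * (a ^ i * d * (a ^ i)⁻¹) * a⁻¹ := by
            rw [pow_succ']; group
        _ = a * (z ^ i * d) * a⁻¹ := by rw [ih]
        _ = z ^ i * (a * d * a⁻¹) := by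
            have : a * z ^ i = z ^ i * a := ((Commute.pow_right (hzc a) i)).eq
            calc a * (z ^ i * d) * a⁻¹ = (a * z ^ i) * d * a⁻¹ := by group
              _ = (z ^ i * a) * d * a⁻¹ := by rw [this]
              _ = _ := by group
        _ = z ^ (i + 1) * d := by rw [h1, pow_succ]; group
  have h3 : z ^ orderOf a = 1 := by
    have := h2 (orderOf a)
    rw [pow_orderOf_eq_one] at this
    simp only [one_mul, inv_one, mul_one] at this
    have h4 : z ^ orderOf a * d = 1 * d := by rw [← this, one_mul]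
    exact mul_right_cancel h4
  have h4 : z ^ orderOf d = 1 := by
    have h5 : (z * d) ^ orderOf d = 1 := by
      rw [← h1, conj_pow, pow_orderOf_eq_one]; group
    have hcz : Commute z d := (hzc d).symm
    rw [hcz.mul_pow, pow_orderOf_eq_one, mul_one] at h5
    exact h5
  have h5 : z = 1 := eq_one_of_coprime_orders hco h3 h4
  have h6 : a * d * a⁻¹ * d⁻¹ = 1 := h5
  calc a * d = (a * d * a⁻¹ * d⁻¹) * (d * a) := by group
    _ = d * a := by rw [h6, one_mul]

section Finite

variable [Finite H]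

/-- Splitting an element into a `q`-part and a `q'`-part. -/
theorem exists_split {q : ℕ} (hq : q.Prime) (x : H) :
    ∃ k m : ℕ, QE q (x ^ k) ∧ (orderOf (x ^ m)).Coprime q ∧ x ^ k * x ^ m = x := by
  have hne : orderOf x ≠ 0 := (orderOf_pos x).ne'
  set a := ordProj[q] (orderOf x) with ha
  set b := ordCompl[q] (orderOf x) with hb
  have hab : a * b = orderOf x := Nat.ordProj_mul_ordCompl_eq_self _ _
  have hco : a.Coprime b := by
    apply Nat.Coprime.pow_left
    exact (Nat.Prime.coprime_iff_not_dvd hq).2 (Nat.not_dvd_ordCompl hq hne)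
  let k := Nat.chineseRemainder hco 1 0
  let m := Nat.chineseRemainder hco 0 1
  have hk1 : (k : ℕ) ≡ 1 [MOD a] := k.2.1
  have hk2 : (k : ℕ) ≡ 0 [MOD b] := k.2.2
  have hm1 : (m : ℕ) ≡ 0 [MOD a] := m.2.1
  have hm2 : (m : ℕ) ≡ 1 [MOD b] := m.2.2
  refine ⟨k, m, ?_, ?_, ?_⟩
  · refine ⟨(orderOf x).factorization q, ?_⟩
    show (x ^ (k : ℕ)) ^ a = 1
    rw [← pow_mul]
    apply orderOf_dvd_iff_pow_eq_one.1
    rw [← hab, mul_comm a b]
    exact mul_dvd_mul ((Nat.modEq_zero_iff_dvd).1 hk2) dvd_rfl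
  · have h1 : (x ^ (m : ℕ)) ^ b = 1 := by
      rw [← pow_mul]
      apply orderOf_dvd_iff_pow_eq_one.1
      rw [← hab]
      exact mul_dvd_mul ((Nat.modEq_zero_iff_dvd).1 hm1) dvd_rfl
    have h2 : orderOf (x ^ (m : ℕ)) ∣ b := orderOf_dvd_of_pow_eq_one h1
    have h3 : b.Coprime q := by
      rw [Nat.coprime_comm]
      exact (Nat.Prime.coprime_iff_not_dvd hq).2 (Nat.not_dvd_ordCompl hq hne)
    exact Nat.Coprime.coprime_dvd_left h2 h3
  · rw [← pow_add]
    have h1 : (k : ℕ) + m ≡ 1 [MOD a] := by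
      simpa using Nat.ModEq.add hk1 hm1
    have h2 : (k : ℕ) + m ≡ 1 [MOD b] := by
      simpa using Nat.ModEq.add hk2 hm2
    have h3 : (k : ℕ) + m ≡ 1 [MOD a * b] := (Nat.modEq_and_modEq_iff_modEq_mul hco).1 ⟨h1, h2⟩
    rw [hab] at h3
    have := (pow_eq_pow_iff_modEq (x := x)).2 h3
    rwa [pow_one] at this

/-- A subgroup containing all prime power powers of `x` contains `x`. -/
theorem mem_of_pp_powers (A : Subgroup H) :
    ∀ (n : ℕ) (x : H), orderOf x = n → (∀ (i q : ℕ), q.Prime → QE q (x ^ i) → x ^ i ∈ A) → x ∈ A := by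
  intro n
  induction n using Nat.strong_induction_on with
  | _ n ih =>
    intro x hx h
    by_cases h1 : n = 1
    · subst h1
      rw [orderOf_eq_one_iff.1 hx]
      exact A.one_mem
    · have hq : (n.minFac).Prime := Nat.minFac_prime h1
      obtain ⟨k, m, h2, h3, h4⟩ := exists_split hq x
      have h5 : x ^ k ∈ A := h k _ hq h2
      have h6 : orderOf (x ^ m) ≠ n := by
        intro h7
        rw [h7] at h3
        have h8 : n.minFac ∣ n := Nat.minFac_dvd n
        have h9 : n.minFac ∣ 1 := by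
          have := Nat.dvd_gcd h8 dvd_rfl
          rwa [h3.gcd_eq_one] at this
        exact hq.one_lt.ne' (Nat.dvd_one.1 h9)
      have h7 : orderOf (x ^ m) < n := by
        have h8 : orderOf (x ^ m) ∣ n := by
          rw [← hx]; exact orderOf_pow_dvd m
        have h9 : 0 < n := by rw [← hx]; exact orderOf_pos x
        exact lt_of_le_of_ne (Nat.le_of_dvd h9 h8) h6
      have h8 : x ^ m ∈ A := ih _ h7 (x ^ m) rfl (by
        intro i q hq' hqe
        rw [← pow_mul] at hqe ⊢
        exact h _ q hq' hqe)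
      rw [← h4]
      exact A.mul_mem h5 h8

/-- An element outside a subgroup has a prime power power outside it. -/
theorem exists_pp_power_not_mem (A : Subgroup H) {x : H} (hx : x ∉ A) :
    ∃ (i q : ℕ), q.Prime ∧ QE q (x ^ i) ∧ x ^ i ∉ A := by
  by_contra hcon
  push Not at hcon
  exact hx (mem_of_pp_powers A _ x rfl (fun i q hq hqe => hcon i q hq hqe))

end Finite

/-- The subgroup of `q`-elements of `D`, when they commute. -/
def qp (q : ℕ) (D : Subgroup H) (hD : ∀ x ∈ D, ∀ y ∈ D, QE q x → QE q y → x * y = y * x) :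
    Subgroup H where
  carrier := {x | x ∈ D ∧ QE q x}
  mul_mem' := by
    rintro a b ⟨ha, ha'⟩ ⟨hb, hb'⟩
    exact ⟨D.mul_mem ha hb, ha'.mul hb' (hD a ha b hb ha' hb')⟩
  one_mem' := ⟨D.one_mem, QE.one q⟩
  inv_mem' := by
    rintro a ⟨ha, ha'⟩
    exact ⟨D.inv_mem ha, ha'.inv⟩

theorem mem_qp {q : ℕ} {D : Subgroup H} {hD : ∀ x ∈ D, ∀ y ∈ D, QE q x → QE q y → x * y = y * x}
    {x : H} : x ∈ qp q D hD ↔ x ∈ D ∧ QE q x := Iff.rfl

theorem isPGroup_qp (q : ℕ) (D : Subgroup H)
    (hD : ∀ x ∈ D, ∀ y ∈ D, QE q x → QE q y → x * y = y * x) : IsPGroup q (qp q D hD) := by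
  rintro ⟨x, hx, k, hk⟩
  exact ⟨k, Subtype.ext hk⟩

theorem qe_of_isPGroup {q : ℕ} {V : Subgroup H} (hV : IsPGroup q V) {x : H} (hx : x ∈ V) :
    QE q x := by
  obtain ⟨k, hk⟩ := hV ⟨x, hx⟩
  exact ⟨k, congrArg Subtype.val hk⟩

/-- A subgroup all of whose elements are `q`-elements is a `q`-group. -/
theorem isPGroup_of_qe {q : ℕ} {V : Subgroup H} (hV : ∀ x ∈ V, QE q x) : IsPGroup q V := by
  rintro ⟨x, hx⟩
  obtain ⟨k, hk⟩ := hV x hx
  exact ⟨k, Subtype.ext hk⟩

/-- The valuation at `q` of the order of `D`. -/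
noncomputable abbrev vq (q : ℕ) (D : Subgroup H) : ℕ := (Nat.card D).factorization q

section FiniteP

variable [Finite H] {q : ℕ} [hq : Fact q.Prime]

theorem card_qp (D : Subgroup H) (hD : ∀ x ∈ D, ∀ y ∈ D, QE q x → QE q y → x * y = y * x) :
    Nat.card (qp q D hD) = q ^ vq q D := by
  classical
  have hle : qp q D hD ≤ D := fun x hx => hx.1
  have h1 : IsPGroup q ((qp q D hD).subgroupOf D) := by
    rintro ⟨⟨x, hxD⟩, hx⟩
    obtain ⟨k, hk⟩ := (mem_subgroupOf.1 hx).2
    exact ⟨k, Subtype.ext (Subtype.ext hk)⟩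
  obtain ⟨P, hP⟩ := h1.exists_le_sylow
  have h2 : (P : Subgroup D) ≤ (qp q D hD).subgroupOf D := by
    intro x hx
    rw [mem_subgroupOf]
    exact ⟨x.2, qe_subtype.1 (qe_of_isPGroup P.2 hx)⟩
  have h3 : (P : Subgroup D) = (qp q D hD).subgroupOf D := le_antisymm h2 hP
  have h4 : Nat.card (P : Subgroup D) = q ^ vq q D := Sylow.card_eq_multiplicity P
  rw [← h4, h3]
  exact Nat.card_congr (subgroupOfEquivOfLe hle).toEquiv.symm

/-- A `q`-subgroup of `D` has order at most the `q`-part of `D`. -/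
theorem card_le_of_isPGroup {P D : Subgroup H} (hPD : P ≤ D) (hP : IsPGroup q P) :
    Nat.card P ≤ q ^ vq q D := by
  obtain ⟨n, hn⟩ := IsPGroup.iff_card.1 hP
  have h1 : Nat.card P ∣ Nat.card D := Subgroup.card_dvd_of_le hPD
  rw [hn] at h1 ⊢
  have h2 : n ≤ vq q D :=
    (Nat.Prime.pow_dvd_iff_le_factorization hq.out Nat.card_pos.ne').1 h1
  exact Nat.pow_le_pow_right hq.out.pos h2

theorem vq_le_of_le {A B : Subgroup H} (h : A ≤ B) : vq q A ≤ vq q B :=
  (Nat.factorization_le_iff_dvd Nat.card_pos.ne' Nat.card_pos.ne').2 (Subgroup.card_dvd_of_le h) q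

theorem vq_lt_of_noncentral {D : Subgroup H} (hZ : center H ≤ D) {v : H} (hv : v ∈ D)
    (hqv : QE q v) (hn : v ∉ center H) : vq q (center H) < vq q D := by
  classical
  -- the subgroup generated by the centre and `v` is commutative
  let B : Subgroup H := center H ⊔ zpowers v
  have hBD : B ≤ D := sup_le hZ ((zpowers_le).2 hv)
  have hB : ∀ x ∈ B, ∀ y ∈ B, x * y = y * x := by
    intro x hx y hy
    rw [show B = center H ⊔ zpowers v from rfl, mem_sup_of_normal_left] at hx hy
    obtain ⟨z₁, hz₁, a, ha, rfl⟩ := hx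
    obtain ⟨z₂, hz₂, b, hb, rfl⟩ := hy
    obtain ⟨i, rfl⟩ := mem_zpowers_iff.1 ha
    obtain ⟨j, rfl⟩ := mem_zpowers_iff.1 hb
    have h1 : Commute (v ^ i) (v ^ j) := (Commute.refl v).zpow_zpow i j
    have h2 : ∀ g, z₁ * g = g * z₁ := fun g => ((mem_center_iff.1 hz₁ g)).symm
    have h3 : ∀ g, z₂ * g = g * z₂ := fun g => ((mem_center_iff.1 hz₂ g)).symm
    calc z₁ * v ^ i * (z₂ * v ^ j) = z₁ * z₂ * (v ^ i * v ^ j) := by
          calc z₁ * v ^ i * (z₂ * v ^ j) = z₁ * (v ^ i * z₂) * v ^ j := by group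
            _ = z₁ * (z₂ * v ^ i) * v ^ j := by rw [h3]
            _ = _ := by group
      _ = z₂ * z₁ * (v ^ j * v ^ i) := by rw [h2 z₂, h1.eq]
      _ = _ := by
          calc z₂ * z₁ * (v ^ j * v ^ i) = z₂ * (z₁ * v ^ j) * v ^ i := by group
            _ = z₂ * (v ^ j * z₁) * v ^ i := by rw [h2]
            _ = _ := by group
  have hB' : ∀ x ∈ B, ∀ y ∈ B, QE q x → QE q y → x * y = y * x :=
    fun x hx y hy _ _ => hB x hx y hy
  have hZ' : ∀ x ∈ center H, ∀ y ∈ center H, QE q x → QE q y → x * y = y * x :=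
    fun x hx y hy _ _ => hB x (mem_sup_left hx) y (mem_sup_left hy)
  have hle : qp q (center H) hZ' < qp q B hB' := by
    refine lt_of_le_of_ne (fun x hx => ⟨mem_sup_left hx.1, hx.2⟩) ?_
    intro h
    have : v ∈ qp q B hB' := ⟨mem_sup_right (mem_zpowers v), hqv⟩
    rw [← h] at this
    exact hn this.1
  have hlt : Nat.card (qp q (center H) hZ') < Nat.card (qp q B hB') :=
    lt_of_le_of_ne (Subgroup.card_le_of_le hle.le)
      (fun h => hle.ne (Subgroup.eq_of_le_of_card_ge hle.le h.ge))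
  rw [card_qp, card_qp] at hlt
  have h1 : vq q (center H) < vq q B := (Nat.pow_lt_pow_iff_right hq.out.one_lt).1 hlt
  exact lt_of_lt_of_le h1 (vq_le_of_le hBD)

theorem exists_noncentral_of_vq_lt {D : Subgroup H} (h : vq q (center H) < vq q D) :
    ∃ v ∈ D, QE q v ∧ v ∉ center H := by
  classical
  by_contra hcon
  push Not at hcon
  let P : Sylow q D := default
  have hP : (P : Subgroup D).map D.subtype ≤ center H := by
    rintro _ ⟨x, hx, rfl⟩
    exact hcon x x.2 (qe_subtype.1 (qe_of_isPGroup P.2 hx))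
  have h1 : IsPGroup q ((P : Subgroup D).map D.subtype) := P.2.map _
  have h2 := card_le_of_isPGroup hP h1
  have h3 : Nat.card ((P : Subgroup D).map D.subtype) = q ^ vq q D := by
    rw [Subgroup.card_map_of_injective D.subtype_injective]
    exact Sylow.card_eq_multiplicity P
  rw [h3] at h2
  have := (Nat.pow_le_pow_iff_right hq.out.one_lt).1 h2
  omega

theorem exists_noncentral_of_vq_le {e : H} (he : QE q e) (hen : e ∉ center H)
    {D : Subgroup H} (h : vq q (Cn e) ≤ vq q D) : ∃ v ∈ D, QE q v ∧ v ∉ center H := by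
  apply exists_noncentral_of_vq_lt
  exact lt_of_lt_of_le
    (vq_lt_of_noncentral (fun x hx => mem_Cn.2 (mem_center_iff.1 hx e).symm) (mem_Cn.2 rfl) he hen) h

theorem vq_Cn_add (u : H) :
    vq q (Cn u) + (cs u).factorization q = (Nat.card H).factorization q := by
  have h1 : Nat.card (Cn u) * cs u = Nat.card H := Subgroup.card_mul_index _
  rw [← h1, Nat.factorization_mul Nat.card_pos.ne' (cs_ne_zero u)]
  simp

theorem vq_le_of_dvd {a b : H} (h : cs a ∣ cs b) : vq q (Cn b) ≤ vq q (Cn a) := by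
  have h1 := vq_Cn_add (q := q) a
  have h2 := vq_Cn_add (q := q) b
  have h3 : (cs a).factorization q ≤ (cs b).factorization q :=
    (Nat.factorization_le_iff_dvd (cs_ne_zero a) (cs_ne_zero b)).2 h q
  omega

/-- If `q` divides the class size of `g`, there is a `q`-element outside the centralizer. -/
theorem exists_qe_not_mem_of_dvd_index {A : Subgroup H} (hd : q ∣ A.index) :
    ∃ v, QE q v ∧ v ∉ A := by
  classical
  by_contra hcon
  push Not at hcon
  let P : Sylow q H := default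
  have hP : (P : Subgroup H) ≤ A := fun x hx => hcon x (qe_of_isPGroup P.2 hx)
  have h1 : A.index ∣ (P : Subgroup H).index := index_dvd_of_le hP
  exact P.not_dvd_index (hd.trans h1)

/-- If all `q`-elements lie in `A` then `q` does not divide the index of `A`. -/
theorem not_dvd_index_of_forall {A : Subgroup H} (h : ∀ v, QE q v → v ∈ A) : ¬ q ∣ A.index := by
  intro hd
  obtain ⟨v, h1, h2⟩ := exists_qe_not_mem_of_dvd_index hd
  exact h2 (h v h1)

/-- If a subgroup contains a Sylow subgroup, `q` does not divide its index. -/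
theorem not_dvd_index_of_sylow_le {A : Subgroup H} (S : Sylow q H) (h : (S : Subgroup H) ≤ A) :
    ¬ q ∣ A.index := by
  intro hd
  exact S.not_dvd_index (hd.trans (index_dvd_of_le h))

theorem exists_conj_mem_sylow (S : Sylow q H) {v : H} (hv : QE q v) :
    ∃ g : H, g * v * g⁻¹ ∈ (S : Subgroup H) := by
  have h1 : IsPGroup q (zpowers v) := by
    rintro ⟨x, hx⟩
    obtain ⟨i, rfl⟩ := mem_zpowers_iff.1 hx
    obtain ⟨k, hk⟩ := hv.zpow i
    exact ⟨k, Subtype.ext hk⟩
  obtain ⟨n, -, hn⟩ := Cfsg.Agent.Lib.CentTools.exists_conj_le_sylow S (N := ⊤) le_top _ h1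
  exact ⟨n, hn v (mem_zpowers v)⟩

theorem exists_conj_le_sylow' (S : Sylow q H) (P : Subgroup H) (hP : IsPGroup q P) :
    ∃ g : H, ∀ x ∈ P, g * x * g⁻¹ ∈ (S : Subgroup H) := by
  obtain ⟨n, -, hn⟩ := Cfsg.Agent.Lib.CentTools.exists_conj_le_sylow S (N := ⊤) le_top _ hP
  exact ⟨n, hn⟩

/-- A `q`-subgroup normalized by a Sylow `q`-subgroup lies in it. -/
theorem le_sylow_of_normalized (S : Sylow q H) (P : Subgroup H) (hP : IsPGroup q P)
    (hn : ∀ a ∈ (S : Subgroup H), ∀ x ∈ P, a * x * a⁻¹ ∈ P) : P ≤ S := by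
  have h1 : (S : Subgroup H) ≤ normalizer (P : Set H) := by
    intro a ha
    rw [mem_normalizer_iff]
    intro x
    constructor
    · exact fun hx => hn a ha x hx
    · intro hx
      have := hn a⁻¹ (S.1.inv_mem ha) _ hx
      have h2 : a⁻¹ * (a * x * a⁻¹) * a⁻¹⁻¹ = x := by group
      rwa [h2] at this
  have h2 : IsPGroup q ((S : Subgroup H) ⊔ P : Subgroup H) := S.2.to_sup_of_normal_right' hP h1
  have h3 := S.is_maximal' h2 le_sup_left
  intro x hx
  have : x ∈ (S : Subgroup H) ⊔ P := mem_sup_right hx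
  rw [h3] at this
  exact this

/-- A `q`-element with no fixed point on a set: the order of the set is divisible by `q`. -/
theorem dvd_ncard_of_no_fixed {a : H} (ha : QE q a) (X : Set H) (hX : ∀ x ∈ X, a * x * a⁻¹ ∈ X)
    (hfix : ∀ x ∈ X, a * x ≠ x * a) : q ∣ X.ncard := by
  classical
  let W := zpowers a
  letI : MulAction W H := MulAction.compHom H ((MulAut.conj (G := H)).comp W.subtype)
  have hsm : ∀ (w : W) (x : H), w • x = (w : H) * x * (w : H)⁻¹ := fun _ _ => rfl
  have hS : ∀ w : W, ∀ x ∈ X, w • x ∈ X := by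
    rintro ⟨w, hw⟩ x hx
    rw [hsm]
    obtain ⟨i, rfl⟩ := mem_zpowers_iff.1 hw
    -- `a` is of finite order, so every power is a natural power
    have h0 : ∀ n : ℕ, ∀ y ∈ X, a ^ n * y * (a ^ n)⁻¹ ∈ X := by
      intro n
      induction n with
      | zero => intro y hy; simpa using hy
      | succ n ih =>
        intro y hy
        have := hX _ (ih y hy)
        have h1 : a ^ (n + 1) * y * (a ^ (n + 1))⁻¹ = a * (a ^ n * y * (a ^ n)⁻¹) * a⁻¹ := by
          rw [pow_succ']; group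
        rw [h1]; exact this
    obtain ⟨n, hn⟩ : ∃ n : ℕ, a ^ i = a ^ n := by
      refine ⟨(i % orderOf a).toNat, ?_⟩
      have h1 : a ^ i = a ^ (i % orderOf a) := (zpow_mod_orderOf a i).symm
      rw [h1]
      have h2 : 0 ≤ i % (orderOf a : ℤ) := Int.emod_nonneg _ (by
        exact_mod_cast (orderOf_pos a).ne')
      conv_lhs => rw [← Int.toNat_of_nonneg h2]
      rw [zpow_natCast]
    show a ^ i * x * (a ^ i)⁻¹ ∈ X
    rw [hn]
    exact h0 n x hx
  apply Cfsg.Agent.Lib.Derangement.dvd_ncard_of_dvd_orbits (H := W) X hS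
  intro x hx
  obtain ⟨e, he⟩ := ha
  have h1 : IsPGroup q W := by
    rintro ⟨y, hy⟩
    obtain ⟨i, rfl⟩ := mem_zpowers_iff.1 hy
    obtain ⟨k, hk⟩ := (QE.zpow ⟨e, he⟩ i : QE q (a ^ i))
    exact ⟨k, Subtype.ext hk⟩
  have h2 : Nat.card (MulAction.orbit W x) ∣ Nat.card W := by
    rw [Nat.card_coe_set_eq, ← MulAction.index_stabilizer W x]
    exact Subgroup.index_dvd_card _
  obtain ⟨n, hn⟩ := IsPGroup.iff_card.1 h1
  rw [hn] at h2
  obtain ⟨j, -, hj⟩ := (Nat.dvd_prime_pow hq.out).1 h2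
  rw [hj]
  rcases j with _ | j
  · exfalso
    rw [pow_zero] at hj
    have h3 : Subsingleton (MulAction.orbit W x) := (Nat.card_eq_one_iff_unique.1 hj).1
    have h4 : (⟨a, mem_zpowers a⟩ : W) • x ∈ MulAction.orbit W x := MulAction.mem_orbit x _
    have h5 : x ∈ MulAction.orbit W x := MulAction.mem_orbit_self x
    have h6 := congrArg Subtype.val (Subsingleton.elim (⟨_, h4⟩ : MulAction.orbit W x) ⟨x, h5⟩)
    have h7 : a * x * a⁻¹ = x := h6
    apply hfix x hx
    calc a * x = a * x * a⁻¹ * a := by group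
      _ = x * a := by rw [h7]
  · exact dvd_pow_self q (Nat.succ_ne_zero j)

/-- In a relative index computation, `C(xv) = C(x) ∩ C(v)`. -/
theorem relIndex_Cn_mul {x v : H} (hc : x * v = v * x) (hco : (orderOf x).Coprime (orderOf v)) :
    (Cn v).relIndex (Cn x) * cs x = cs (x * v) := by
  have h1 : ((Cn v) ⊓ (Cn x)).relIndex (Cn x) * (Cn x).index = ((Cn v) ⊓ (Cn x)).index :=
    relIndex_mul_index inf_le_right
  rw [inf_relIndex_right] at h1
  have h2 : Cn (x * v) = Cn v ⊓ Cn x := by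
    rw [Cn_mul hc hco, inf_comm]
  show (Cn v).relIndex (Cn x) * (Cn x).index = (Cn (x * v)).index
  rw [h2, h1]

theorem cs_subtype (A : Subgroup H) (x : A) : cs x = (Cn (x : H)).relIndex A := by
  have : Cn x = (Cn (x : H)).subgroupOf A := by
    ext a
    rw [mem_Cn, mem_subgroupOf, mem_Cn]
    constructor
    · intro h
      exact congrArg Subtype.val h
    · intro h
      exact Subtype.ext h
  show (Cn x).index = _
  rw [this]
  rfl

theorem mem_center_subtype (A : Subgroup H) (x : A) :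
    x ∈ center A ↔ ∀ a ∈ A, a * (x : H) = (x : H) * a := by
  rw [mem_center_iff]
  constructor
  · intro h a ha
    exact congrArg Subtype.val (h ⟨a, ha⟩)
  · intro h a
    exact Subtype.ext (h a a.2)

/-- The element `x` is not central if `x * v` is, for coprime commuting elements. -/
theorem not_mem_center_mul {x v : H} (hc : x * v = v * x) (hco : (orderOf x).Coprime (orderOf v))
    (hx : x ∉ center H) : x * v ∉ center H := by
  intro h
  obtain ⟨k, hk⟩ := Cfsg.Agent.Lib.CentTools.exists_pow_eq_left (x := x) (y := v) hc hco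
  apply hx
  rw [← hk]
  exact (center H).pow_mem h k

end FiniteP

end Cfsg.Agent.Lib.ItoBasic
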