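import Mathlib
import Cfsg.Agent.Lib.ItoBasic

/-!
# Ito's theorem: the action lemma

An abstract statement on a finite group acting on two abelian groups, using a double product and
Burnside's transfer theorem.
-/

set_option autoImplicit false
set_option linter.unusedSectionVars false
set_option linter.unusedVariables false

namespace Cfsg.Agent.Lib.ItoAct

open Subgroup
open Cfsg.Agent.Lib.ItoBasic

section Norms

variable {W V : Type*} [Group W] [CommGroup V]

/-- A norm over a subgroup containing an element without fixed points is trivial. -/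
theorem norm_fix_one (ρ : W →* MulAut V) (X : Subgroup W) [Fintype X] {x₀ : W} (hx₀ : x₀ ∈ X)
    (h : ∀ v : V, ρ x₀ v = v → v = 1) (w : V) : ∏ x : X, ρ (x : W) w = 1 := by
  apply h
  rw [map_prod]
  apply Fintype.prod_equiv (Equiv.mulLeft (⟨x₀, hx₀⟩ : X))
  intro x
  simp

/-- The norm over the cyclic subgroup. -/
theorem norm_zpowers [Finite W] (ρ : W →* MulAut V) (c : W) [Fintype (zpowers c)] (w : V) :
    ∏ x : zpowers c, ρ (x : W) w = ∏ i ∈ Finset.range (orderOf c), ρ (c ^ i) w := by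
  have hc : IsOfFinOrder c := isOfFinOrder_of_finite c
  rw [← Fin.prod_univ_eq_prod_range (fun i => ρ (c ^ i) w) (orderOf c)]
  symm
  apply Fintype.prod_equiv (finEquivZPowers hc)
  intro i
  rw [finEquivZPowers_apply]

variable [Finite W]

/-- The double product. -/
theorem pow_card_of_norms (ρ : W →* MulAut V) (P Y : Subgroup W) [Fintype P] [Fintype Y]
    (hYP : ∀ c ∈ Y, ∀ x ∈ P, c * x * c⁻¹ ∈ P)
    (hfpf : ∀ c ∈ Y, c ≠ 1 → ∀ x ∈ P, x * c = c * x → x = 1)
    (hNP : ∀ w : V, ∏ x : P, ρ (x : W) w = 1)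
    (hNY : ∀ w : V, ∏ c : Y, ρ (c : W) w = 1) (v : V) :
    v ^ Nat.card P = 1 := by
  classical
  have hS1 : ∏ x : P, ∏ c : Y, ρ ((x : W) * (c : W) * (x : W)⁻¹) v = 1 := by
    apply Finset.prod_eq_one
    intro x _
    have : ∏ c : Y, ρ ((x : W) * (c : W) * (x : W)⁻¹) v =
        ρ (x : W) (∏ c : Y, ρ (c : W) (ρ (x : W)⁻¹ v)) := by
      rw [map_prod]
      apply Finset.prod_congr rfl
      intro c _
      rw [map_mul, map_mul, map_inv]
      rfl
    rw [this, hNY, map_one]
  have hS2 : ∏ c : Y, ∏ x : P, ρ ((x : W) * (c : W) * (x : W)⁻¹) v = v ^ Nat.card P := by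
    rw [Finset.prod_eq_single (1 : Y)]
    · have h0 : ∀ x : P, ρ ((x : W) * (((1 : Y) : W)) * (x : W)⁻¹) v = v := by
        intro x
        have : (x : W) * (((1 : Y) : W)) * (x : W)⁻¹ = 1 := by simp
        rw [this, map_one]
        rfl
      rw [Finset.prod_congr rfl (fun x _ => h0 x), Finset.prod_const, Finset.card_univ,
        Nat.card_eq_fintype_card]
    · intro c _ hc
      have hc' : (c : W) ≠ 1 := fun h => hc (Subtype.ext h)
      let φ : P → P := fun x => x * ⟨(c : W) * (x : W)⁻¹ * (c : W)⁻¹, hYP c c.2 _ (P.inv_mem x.2)⟩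
      have hφinj : Function.Injective φ := by
        intro x x' h
        have h1 : (x : W) * ((c : W) * (x : W)⁻¹ * (c : W)⁻¹) =
            (x' : W) * ((c : W) * (x' : W)⁻¹ * (c : W)⁻¹) := congrArg Subtype.val h
        have hu : (x' : W)⁻¹ * (x : W) ∈ P := P.mul_mem (P.inv_mem x'.2) x.2
        have h2 : ((x' : W)⁻¹ * (x : W)) * (c : W) = (c : W) * ((x' : W)⁻¹ * (x : W)) := by
          have h3 : (x' : W)⁻¹ * (x : W) = (c : W) * (x' : W)⁻¹ * (c : W)⁻¹ * ((c : W) * (x : W)⁻¹ * (c : W)⁻¹)⁻¹ := by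
            calc (x' : W)⁻¹ * (x : W) = (x' : W)⁻¹ * ((x : W) * ((c : W) * (x : W)⁻¹ * (c : W)⁻¹)) * ((c : W) * (x : W)⁻¹ * (c : W)⁻¹)⁻¹ := by group
              _ = (x' : W)⁻¹ * ((x' : W) * ((c : W) * (x' : W)⁻¹ * (c : W)⁻¹)) * ((c : W) * (x : W)⁻¹ * (c : W)⁻¹)⁻¹ := by rw [h1]
              _ = _ := by group
          calc ((x' : W)⁻¹ * (x : W)) * (c : W) = ((c : W) * (x' : W)⁻¹ * (c : W)⁻¹ * ((c : W) * (x : W)⁻¹ * (c : W)⁻¹)⁻¹) * (c : W) := by rw [← h3]
            _ = (c : W) * ((x' : W)⁻¹ * (x : W)) := by group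
        have h4 := hfpf c c.2 hc' _ hu h2
        have h5 : (x : W) = (x' : W) := by
          have := congrArg (fun z => (x' : W) * z) h4
          simpa using this
        exact Subtype.ext h5
      have hφbij : Function.Bijective φ := Finite.injective_iff_bijective.mp hφinj
      have : ∏ x : P, ρ ((x : W) * (c : W) * (x : W)⁻¹) v = ∏ x : P, ρ ((φ x : P) : W) (ρ (c : W) v) := by
        apply Finset.prod_congr rfl
        intro x _
        have : (x : W) * (c : W) * (x : W)⁻¹ = ((φ x : P) : W) * (c : W) := by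
          show (x : W) * (c : W) * (x : W)⁻¹ = ((x : W) * ((c : W) * (x : W)⁻¹ * (c : W)⁻¹)) * (c : W)
          group
        rw [this, map_mul]
        rfl
      rw [this, hφbij.prod_comp (fun x : P => ρ (x : W) (ρ (c : W) v)), hNP]
    · simp
  rw [← hS2, Finset.prod_comm, hS1]

end Norms

section Main

variable {W : Type*} [Group W] [Finite W]

/-- **The action lemma.** -/
theorem W_cyclic {V₁ V₂ : Type*} [CommGroup V₁] [CommGroup V₂] (ρ₁ : W →* MulAut V₁)
    (ρ₂ : W →* MulAut V₂) {ℓ : ℕ} (hℓ : ℓ.Prime) (y : W) (hy : orderOf y = ℓ)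
    (hv : ¬ ℓ ^ 2 ∣ Nat.card W)
    (pairing : ∀ c : W, c * y = y * c → (orderOf c).Coprime ℓ → c = 1)
    (A1 : ∀ v : V₁, ρ₁ y v = v → v = 1)
    (A2 : ∀ c : W, (orderOf c).Prime → orderOf c ≠ ℓ →
      (∀ v : V₁, ρ₁ c v = v → v = 1) ∨ ∀ v : V₁, ∏ i ∈ Finset.range (orderOf c), ρ₁ (c ^ i) v = 1)
    (A3 : ∃ v₀ : V₁, v₀ ≠ 1 ∧ (orderOf v₀).Coprime ℓ)
    (B1 : ∀ c : W, (orderOf c).Prime → orderOf c ≠ ℓ → ∀ v : V₂, ρ₂ c v = v → v = 1)
    (B2 : ∀ v : V₂, ∏ i ∈ Finset.range ℓ, ρ₂ (y ^ i) v = 1)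
    (B3 : ∃ v₀ : V₂, v₀ ≠ 1 ∧ QE ℓ v₀) : ∀ x : W, x ∈ zpowers y := by
  classical
  haveI : Fact ℓ.Prime := ⟨hℓ⟩
  letI : ∀ X : Subgroup W, Fintype X := fun X => Fintype.ofFinite _
  set P₀ : Subgroup W := zpowers y with hP₀
  have hcardP₀ : Nat.card P₀ = ℓ := by rw [hP₀, Nat.card_zpowers, hy]
  have hdvd : ℓ ∣ Nat.card W := by
    rw [← hcardP₀]; exact Subgroup.card_subgroup_dvd_card P₀
  have hW0 : Nat.card W ≠ 0 := Nat.card_pos.ne'
  have hfac : (Nat.card W).factorization ℓ = 1 := by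
    have h1 : 1 ≤ (Nat.card W).factorization ℓ := by
      have := (hℓ.pow_dvd_iff_le_factorization hW0 (k := 1)).1 (by simpa using hdvd)
      exact this
    have h2 : ¬ 2 ≤ (Nat.card W).factorization ℓ := fun h =>
      hv ((hℓ.pow_dvd_iff_le_factorization hW0 (k := 2)).2 h)
    omega
  let PS : Sylow ℓ W := Sylow.ofCard P₀ (by rw [hcardP₀, hfac, pow_one])
  have hPS : (PS : Subgroup W) = P₀ := Sylow.coe_ofCard _ _
  have hgen : ∀ x ∈ P₀, x ≠ 1 → y ∈ zpowers x := by
    intro x hx hx1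
    have h1 : orderOf x = ℓ := by
      have h2 : orderOf x ∣ ℓ := by
        rw [← hy]; exact orderOf_dvd_of_mem_zpowers hx
      rcases (Nat.dvd_prime hℓ).1 h2 with h3 | h3
      · exact (hx1 (orderOf_eq_one_iff.1 h3)).elim
      · exact h3
    have h4 : zpowers x = P₀ := by
      apply Subgroup.eq_of_le_of_card_ge ((zpowers_le).2 hx)
      rw [hcardP₀, Nat.card_zpowers, h1]
    rw [h4]
    exact mem_zpowers y
  -- the normalizer of `P₀`
  have hNP₀ : normalizer (P₀ : Set W) ≤ P₀ := by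
    by_contra hcon
    set A := normalizer (P₀ : Set W) with hA
    have hPA : P₀ ≤ A := le_normalizer
    have hdA : ℓ ∣ Nat.card A := by
      rw [← hcardP₀]; exact Subgroup.card_dvd_of_le hPA
    have hneA : Nat.card A ≠ ℓ := by
      intro h
      apply hcon
      have := Subgroup.eq_of_le_of_card_ge hPA (by rw [h, hcardP₀])
      rw [← this]
    obtain ⟨m, hm⟩ := hdA
    have hm1 : m ≠ 1 := by
      rintro rfl
      exact hneA (by rw [hm, mul_one])
    obtain ⟨p, hp, hpm⟩ := Nat.exists_prime_and_dvd hm1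
    have hpl : p ≠ ℓ := by
      rintro rfl
      apply hv
      have h1 : p ^ 2 ∣ Nat.card A := by
        rw [hm, pow_two]; exact Nat.mul_dvd_mul_left _ hpm
      exact h1.trans (Subgroup.card_subgroup_dvd_card A)
    haveI : Fact p.Prime := ⟨hp⟩
    obtain ⟨c, hc⟩ := exists_prime_orderOf_dvd_card' (G := A) p (by rw [hm]; exact hpm.mul_left _)
    have hc' : orderOf (c : W) = p := by rw [Subgroup.orderOf_coe]; exact hc
    have hco : ∀ d ∈ zpowers (c : W), (orderOf d).Coprime ℓ := by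
      intro d hd
      have h1 : orderOf d ∣ p := by
        rw [← hc']; exact orderOf_dvd_of_mem_zpowers hd
      exact Nat.Coprime.coprime_dvd_left h1 ((Nat.coprime_primes hp hℓ).2 hpl)
    have key := pow_card_of_norms ρ₁ P₀ (zpowers (c : W))
      (by
        rintro d hd x hx
        have hdA : d ∈ A := (zpowers_le).2 c.2 hd
        exact (mem_normalizer_iff.1 hdA x).1 hx)
      (by
        intro d hd hd1 x hx hxd
        by_contra hx1
        have h1 : d * y = y * d := by
          have h2 : y ∈ zpowers x := hgen x hx hx1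
          obtain ⟨k, hk⟩ := mem_zpowers_iff.1 h2
          rw [← hk]
          exact ((Commute.zpow_left (show Commute x d from hxd) k).symm).eq
        exact hd1 (pairing d h1 (hco d hd)))
      (fun w => norm_fix_one ρ₁ P₀ (mem_zpowers y) A1 w)
      (fun w => by
        rw [norm_zpowers, hc']
        rcases A2 c (by rw [hc']; exact hp) (by rw [hc']; exact hpl) with h1 | h1
        · have := norm_fix_one ρ₁ (zpowers (c : W)) (mem_zpowers _) h1 w
          rw [norm_zpowers, hc'] at this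
          exact this
        · have := h1 w
          rwa [hc'] at this)
    obtain ⟨v₀, hv₀, hco₀⟩ := A3
    have h1 := key v₀
    rw [hcardP₀] at h1
    have h2 : orderOf v₀ ∣ ℓ := orderOf_dvd_of_pow_eq_one h1
    have h3 : orderOf v₀ = 1 := by
      rcases (Nat.dvd_prime hℓ).1 h2 with h4 | h4
      · exact h4
      · rw [h4] at hco₀
        exact (hℓ.one_lt.ne' (by simpa using hco₀)).elim
    exact hv₀ (orderOf_eq_one_iff.1 h3)
  -- transfer
  have hcen : normalizer ((PS : Subgroup W) : Set W) ≤ centralizer ((PS : Subgroup W) : Set W) := by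
    rw [hPS]
    refine hNP₀.trans ?_
    intro a ha
    rw [mem_centralizer_iff]
    intro b hb
    obtain ⟨i, rfl⟩ := mem_zpowers_iff.1 ha
    obtain ⟨j, rfl⟩ := mem_zpowers_iff.1 hb
    exact ((Commute.refl y).zpow_zpow j i).eq
  have hcompl := MonoidHom.ker_transferSylow_isComplement' PS hcen
  have hnd := MonoidHom.not_dvd_card_ker_transferSylow PS hcen
  set W₁ := (MonoidHom.transferSylow PS hcen).ker with hW₁
  haveI hW₁n : W₁.Normal := MonoidHom.normal_ker _
  have hcoW₁ : (Nat.card W₁).Coprime ℓ := ((Nat.Prime.coprime_iff_not_dvd hℓ).2 hnd).symm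
  have hbot : W₁ = ⊥ := by
    by_contra hne
    have hcard1 : Nat.card W₁ ≠ 1 := fun h => hne (Subgroup.card_eq_one.1 h)
    obtain ⟨p, hp, hpm⟩ := Nat.exists_prime_and_dvd hcard1
    have hpl : p ≠ ℓ := by
      rintro rfl
      exact hnd hpm
    haveI : Fact p.Prime := ⟨hp⟩
    obtain ⟨c, hc⟩ := exists_prime_orderOf_dvd_card' (G := W₁) p hpm
    have hc' : orderOf (c : W) = p := by rw [Subgroup.orderOf_coe]; exact hc
    have key := pow_card_of_norms ρ₂ W₁ P₀
      (by
        intro d _ x hx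
        exact hW₁n.conj_mem x hx d)
      (by
        intro d hd hd1 x hx hxd
        have h2 : y ∈ zpowers d := hgen d hd hd1
        obtain ⟨k, hk⟩ := mem_zpowers_iff.1 h2
        have h1 : x * y = y * x := by
          rw [← hk]
          exact ((Commute.zpow_right (show Commute x d from hxd) k)).eq
        refine pairing x h1 ?_
        have h3 : orderOf x ∣ Nat.card W₁ := by
          have := orderOf_dvd_natCard (⟨x, hx⟩ : W₁)
          rwa [Subgroup.orderOf_mk] at this
        exact Nat.Coprime.coprime_dvd_left h3 hcoW₁)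
      (fun w => norm_fix_one ρ₂ W₁ c.2 (B1 c (by rw [hc']; exact hp) (by rw [hc']; exact hpl)) w)
      (fun w => by
        rw [hP₀, norm_zpowers, hy]
        exact B2 w)
    obtain ⟨v₀, hv₀, hq₀⟩ := B3
    have h1 := key v₀
    exact hv₀ (hq₀.eq_one_of_pow hℓ (m := Nat.card W₁) hcoW₁ h1)
  intro x
  have h1 := hcompl.card_mul_card
  rw [hbot] at h1
  have h2 : Nat.card (⊥ : Subgroup W) = 1 := Subgroup.card_bot
  rw [h2, one_mul, hPS] at h1
  have h3 : P₀ = ⊤ := by
    apply Subgroup.eq_top_of_card_eq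
    exact h1
  rw [h3]
  trivial

end Main

end Cfsg.Agent.Lib.ItoAct
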