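import Mathlib
import Cfsg.Agent.Lib.ItoBasic
import Cfsg.Agent.Lib.FrobAction

/-!
# Centralizer systems: the core of Ito's theorem

`CS Θ H`: for a set of primes `Θ`, commuting noncentral `Θ`-elements of prime power order have the
same centralizer, and each noncentral element of this kind commutes with one of another prime.

Main results: the Sylow analysis (`TCond`), `lemF`, `two_prime`, `conj_of_card_eq`, `ending`.
-/

set_option autoImplicit false
set_option linter.unusedSectionVars false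
set_option linter.unusedVariables false

namespace Cfsg.Agent.Lib.ItoComp

open Subgroup
open Cfsg.Agent.Lib.CoprimeClass (cs mem_cent cs_eq_one_iff cs_conj cs_ne_zero eq_top_of_conj_cover)
open Cfsg.Agent.Lib.CentTools (Cn mem_Cn Cn_mul conj_mem_Cn Cn_mul_central conj_mem_center_iff
  exists_special card_mul_card_le ncard_diff)
open Cfsg.Agent.Lib.ItoBasic

variable {H : Type*} [Group H]

/-- A centralizer system for the set of primes `Θ`. -/
structure CS (Θ : ℕ → Prop) (H : Type*) [Group H] : Prop where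
  prime : ∀ q, Θ q → q.Prime
  same : ∀ (q t : ℕ) (u d : H), Θ q → Θ t → QE q u → QE t d → u ∉ center H → d ∉ center H →
    u * d = d * u → Cn u = Cn d
  two : ∀ (q : ℕ) (u : H), Θ q → QE q u → u ∉ center H →
    ∃ (t : ℕ) (d : H), Θ t ∧ t ≠ q ∧ QE t d ∧ d ∉ center H ∧ u * d = d * u

theorem mem_Cn_conj {u g x : H} : x ∈ Cn (g * u * g⁻¹) ↔ g⁻¹ * x * g ∈ Cn u := by
  rw [mem_Cn, mem_Cn]
  constructor
  · intro h
    calc g⁻¹ * x * g * u = g⁻¹ * (x * (g * u * g⁻¹)) * g := by group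
      _ = g⁻¹ * ((g * u * g⁻¹) * x) * g := by rw [h]
      _ = _ := by group
  · intro h
    calc x * (g * u * g⁻¹) = g * (g⁻¹ * x * g * u) * g⁻¹ := by group
      _ = g * (u * (g⁻¹ * x * g)) * g⁻¹ := by rw [h]
      _ = _ := by group

theorem Cn_conj_congr {a b : H} (h : Cn a = Cn b) (g : H) :
    Cn (g * a * g⁻¹) = Cn (g * b * g⁻¹) := by
  ext x
  rw [mem_Cn_conj, mem_Cn_conj, h]

theorem comm_center (q : ℕ) : ∀ x ∈ center H, ∀ y ∈ center H, QE q x → QE q y → x * y = y * x :=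
  fun x hx y _ _ _ => ((mem_center_iff.1 hx y)).symm

section CSBasic

variable {Θ : ℕ → Prop} (hCS : CS Θ H)

include hCS

/-- `Θ`-elements of prime power order in `C(u)` are central in `C(u)`. -/
theorem central_in_Cn {q t : ℕ} {u x : H} (hq : Θ q) (ht : Θ t) (hu : QE q u) (hun : u ∉ center H)
    (hx : QE t x) (hxC : x ∈ Cn u) {y : H} (hy : y ∈ Cn u) : y * x = x * y := by
  by_cases hxZ : x ∈ center H
  · exact (mem_center_iff.1 hxZ y)
  · have h1 : Cn u = Cn x := hCS.same q t u x hq ht hu hx hun hxZ (mem_Cn.1 hxC).symm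
    rw [h1] at hy
    exact mem_Cn.1 hy

theorem comm_qe {q t : ℕ} {u : H} (hq : Θ q) (ht : Θ t) (hu : QE q u) (hun : u ∉ center H) :
    ∀ x ∈ Cn u, ∀ y ∈ Cn u, QE t x → QE t y → x * y = y * x :=
  fun x hx y hy hxt _ => (central_in_Cn hCS hq ht hu hun hxt hx hy).symm

/-- If `g` has order prime to `t`, lies outside `C(u)` and fixes the `t`-element `e` of `C(u)`
modulo the centre, then `e` is central. -/
theorem fix_central {q t : ℕ} {u g e : H} (hq : Θ q) (ht : Θ t) (hu : QE q u) (hun : u ∉ center H)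
    (hg : (orderOf g).Coprime t) (hgn : g ∉ Cn u) (he : e ∈ Cn u) (het : QE t e)
    (hfix : g * e * g⁻¹ * e⁻¹ ∈ center H) : e ∈ center H := by
  by_contra heZ
  have h1 : Cn u = Cn e := hCS.same q t u e hq ht hu het hun heZ (mem_Cn.1 he).symm
  have h2 : g * e = e * g := by
    apply comm_of_central_comm hfix
    exact (het.coprime_right hg).symm
  apply hgn
  rw [h1]
  exact mem_Cn.2 h2

end CSBasic

/-- An element mapping a finite subgroup into itself by conjugation normalizes it. -/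
theorem mem_normalizer_of_forall {Q : Type*} [Group Q] [Finite Q] (V : Subgroup Q) (g : Q)
    (hg : ∀ x ∈ V, g * x * g⁻¹ ∈ V) : g ∈ normalizer (V : Set Q) := by
  rw [mem_normalizer_iff_map_conj_eq]
  apply Subgroup.eq_of_le_of_card_ge
  · rintro _ ⟨x, hx, rfl⟩
    exact hg x hx
  · rw [Subgroup.card_map_of_injective (MulAut.conj g).injective]

/-- A group acting on an abelian `V` with rank two commuting action has `V` of exponent `q`. -/
theorem no_rank_two {Q : Type*} [Group Q] [Finite Q] (V : Subgroup Q)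
    (hcomm : ∀ x ∈ V, ∀ y ∈ V, x * y = y * x) (a b : Q) (ha : ∀ x ∈ V, a * x * a⁻¹ ∈ V)
    (hb : ∀ x ∈ V, b * x * b⁻¹ ∈ V) {q : ℕ} (hq : q.Prime)
    (h1 : ∀ x ∈ V, a ^ q * x = x * a ^ q) (h2 : ∀ x ∈ V, b ^ q * x = x * b ^ q)
    (h3 : ∀ x ∈ V, (a * b * a⁻¹ * b⁻¹) * x = x * (a * b * a⁻¹ * b⁻¹))
    (h4 : ∀ x ∈ V, b * x * b⁻¹ = x → x = 1)
    (h5 : ∀ j : ℤ, ∀ x ∈ V, (a * b ^ j) * x * (a * b ^ j)⁻¹ = x → x = 1) :
    ∀ x ∈ V, x ^ q = 1 := by
  classical
  have hN : ∀ g : Q, (∀ x ∈ V, g * x * g⁻¹ ∈ V) → g ∈ normalizer (V : Set Q) :=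
    fun g hg => mem_normalizer_of_forall V g hg
  let ρ := V.normalizerMonoidHom
  have hρ : ∀ (g : normalizer (V : Set Q)) (x : V), ((ρ g x : V) : Q) = (g : Q) * x * (g : Q)⁻¹ :=
    fun _ _ => rfl
  let a' : normalizer (V : Set Q) := ⟨a, hN a ha⟩
  let b' : normalizer (V : Set Q) := ⟨b, hN b hb⟩
  have hcab : Commute (ρ a') (ρ b') := by
    show ρ a' * ρ b' = ρ b' * ρ a'
    ext x
    show ((ρ a' (ρ b' x) : V) : Q) = ((ρ b' (ρ a' x) : V) : Q)
    rw [hρ, hρ, hρ, hρ]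
    show a * (b * x * b⁻¹) * a⁻¹ = b * (a * x * a⁻¹) * b⁻¹
    have hx' : b * (a * x * a⁻¹) * b⁻¹ ∈ V := hb _ (ha _ x.2)
    have := h3 _ hx'
    calc a * (b * x * b⁻¹) * a⁻¹
        = (a * b * a⁻¹ * b⁻¹) * (b * (a * x * a⁻¹) * b⁻¹) * (a * b * a⁻¹ * b⁻¹)⁻¹ := by group
      _ = (b * (a * x * a⁻¹) * b⁻¹) * (a * b * a⁻¹ * b⁻¹) * (a * b * a⁻¹ * b⁻¹)⁻¹ := by rw [this]
      _ = _ := by group
  have hap : (ρ a') ^ q = 1 := by
    rw [← map_pow]
    ext x
    show ((ρ (a' ^ q) x : V) : Q) = x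
    rw [hρ]
    show a ^ q * x * (a ^ q)⁻¹ = x
    rw [h1 _ x.2]; group
  have hbp : (ρ b') ^ q = 1 := by
    rw [← map_pow]
    ext x
    show ((ρ (b' ^ q) x : V) : Q) = x
    rw [hρ]
    show b ^ q * x * (b ^ q)⁻¹ = x
    rw [h2 _ x.2]; group
  have hfb : ∀ w : V, (MonoidHom.id (MulAut V)) (ρ b') w = w → w = 1 := by
    intro w hw
    have h6 : ((ρ b' w : V) : Q) = w := congrArg Subtype.val hw
    rw [hρ] at h6
    exact Subtype.ext (h4 _ w.2 h6)
  have hfc : ∀ y ∈ zpowers (ρ b'), ∀ w : V, (MonoidHom.id (MulAut V)) (ρ a' * y) w = w → w = 1 := by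
    rintro y ⟨j, rfl⟩ w hw
    have h6 : ((ρ (a' * b' ^ j) w : V) : Q) = w := by
      rw [map_mul, map_zpow]
      exact congrArg Subtype.val hw
    rw [hρ] at h6
    exact Subtype.ext (h5 j _ w.2 h6)
  intro x hx
  have hcommV : ∀ u v : V, u * v = v * u := fun u v => Subtype.ext (hcomm _ u.2 _ v.2)
  have h6 := Cfsg.Agent.Lib.FrobAction.pow_card_eq_one_of_commuting_pair hcommV
    (MonoidHom.id (MulAut V)) (ρ a') (ρ b') hcab q hq hap hbp hfb hfc ⟨x, hx⟩
  rw [Nat.card_zpowers] at h6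
  have h7 : orderOf (ρ b') ∣ q := orderOf_dvd_of_pow_eq_one hbp
  obtain ⟨c, hc⟩ := h7
  have h8 : (⟨x, hx⟩ : V) ^ q = 1 := by
    rw [hc, pow_mul, h6, one_pow]
  exact congrArg Subtype.val h8

section Sylow

variable [Finite H] {q : ℕ} [hqF : Fact q.Prime]

/-- Existence of `w` in a Sylow subgroup with central commutators and central `q`-th power. -/
theorem exists_w (S : Sylow q H)
    (hZ : ∀ z ∈ (S : Subgroup H), (∀ a ∈ (S : Subgroup H), a * z = z * a) → z ∈ center H)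
    {v : H} (hvS : v ∈ (S : Subgroup H)) (hv : v ∉ center H) :
    ∃ w ∈ (S : Subgroup H), w ∉ center H ∧
      (∀ a ∈ (S : Subgroup H), a * w * a⁻¹ * w⁻¹ ∈ center H) ∧ w ^ q ∈ center H := by
  classical
  obtain ⟨t, htS, -, htZ, htc⟩ := exists_special (N := ⊤) (S : Subgroup H) (center H) S.2 v hvS
    (mem_top v) hv
  obtain ⟨e₀, he₀⟩ := qe_of_isPGroup S.2 htS
  have hP : ∃ e : ℕ, t ^ (q ^ e) ∈ center H := ⟨e₀, by rw [he₀]; exact (center H).one_mem⟩
  have hne : Nat.find hP ≠ 0 := by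
    intro h0
    have := Nat.find_spec hP
    rw [h0, pow_zero, pow_one] at this
    exact htZ this
  obtain ⟨e, he⟩ := Nat.exists_eq_succ_of_ne_zero hne
  have h1 : t ^ (q ^ e) ∉ center H := Nat.find_min hP (by omega)
  have h2 : t ^ (q ^ (e + 1)) ∈ center H := by
    have := Nat.find_spec hP
    rwa [he] at this
  refine ⟨t ^ (q ^ e), S.1.pow_mem htS _, h1, ?_, ?_⟩
  · intro a ha
    have hz := htc a ha
    set z := a * t * a⁻¹ * t⁻¹ with hzdef
    have h3 : a * t * a⁻¹ = z * t := by rw [hzdef]; group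
    have hcz : Commute z t := (mem_center_iff.1 hz t).symm
    rw [← conj_pow, h3, hcz.mul_pow]
    have : z ^ q ^ e * t ^ q ^ e * (t ^ q ^ e)⁻¹ = z ^ q ^ e := by group
    rw [this]
    exact (center H).pow_mem hz _
  · rw [← pow_mul, ← pow_succ]
    exact h2

/-- The conditions on a Sylow subgroup `S` and a suitable element `w`. -/
structure TCond (q : ℕ) (S : Subgroup H) (w : H) : Prop where
  memS : w ∈ S
  nc : w ∉ center H
  comm : ∀ a ∈ S, a * w * a⁻¹ * w⁻¹ ∈ center H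
  powZ : w ^ q ∈ center H
  bad : ∀ z ∈ S, (∀ a ∈ S, a * z = z * a) → z ∈ center H

namespace TCond

variable {S : Sylow q H} {w : H} (h : TCond q (S : Subgroup H) w)

include h

theorem qe_of_mem {a : H} (ha : a ∈ (S : Subgroup H)) : QE q a := qe_of_isPGroup S.2 ha

theorem Cn_conj_eq {a : H} (ha : a ∈ (S : Subgroup H)) : Cn (a * w * a⁻¹) = Cn w := by
  have hz := h.comm a ha
  set z := a * w * a⁻¹ * w⁻¹ with hzdef
  have h3 : a * w * a⁻¹ = w * z := by
    have hc : w * z = z * w := (mem_center_iff.1 hz w)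
    rw [hc, hzdef]; group
  rw [h3]
  exact Cn_mul_central hz

theorem conj_mem {a x : H} (ha : a ∈ (S : Subgroup H)) (hx : x ∈ Cn w) : a * x * a⁻¹ ∈ Cn w := by
  have := conj_mem_Cn (g := a) hx
  rwa [h.Cn_conj_eq ha] at this

/-- The commutator homomorphism. -/
noncomputable def chi : (S : Subgroup H) →* center H :=
  MonoidHom.mk' (fun a => ⟨(a : H) * w * (a : H)⁻¹ * w⁻¹, h.comm a a.2⟩) (by
    intro a b
    apply Subtype.ext
    have hz := h.comm b b.2
    show ((a : H) * b) * w * ((a : H) * b)⁻¹ * w⁻¹ =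
      ((a : H) * w * (a : H)⁻¹ * w⁻¹) * ((b : H) * w * (b : H)⁻¹ * w⁻¹)
    set zb := (b : H) * w * (b : H)⁻¹ * w⁻¹ with hzb
    have h1 : (b : H) * w * (b : H)⁻¹ = zb * w := by rw [hzb]; group
    have hc : ∀ g : H, g * zb = zb * g := fun g => mem_center_iff.1 hz g
    calc ((a : H) * b) * w * ((a : H) * b)⁻¹ * w⁻¹
        = (a : H) * ((b : H) * w * (b : H)⁻¹) * (a : H)⁻¹ * w⁻¹ := by group
      _ = (a : H) * (zb * w) * (a : H)⁻¹ * w⁻¹ := by rw [h1]
      _ = ((a : H) * zb) * (w * (a : H)⁻¹ * w⁻¹) := by group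
      _ = (zb * (a : H)) * (w * (a : H)⁻¹ * w⁻¹) := by rw [hc]
      _ = zb * ((a : H) * w * (a : H)⁻¹ * w⁻¹) := by group
      _ = ((a : H) * w * (a : H)⁻¹ * w⁻¹) * zb := (hc _).symm)

theorem chi_apply (a : (S : Subgroup H)) :
    ((h.chi a : center H) : H) = (a : H) * w * (a : H)⁻¹ * w⁻¹ := rfl

theorem chi_eq_one_iff (a : (S : Subgroup H)) : h.chi a = 1 ↔ (a : H) ∈ Cn w := by
  rw [mem_Cn]
  constructor
  · intro h1
    have h2 : (a : H) * w * (a : H)⁻¹ * w⁻¹ = 1 := congrArg Subtype.val h1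
    calc (a : H) * w = ((a : H) * w * (a : H)⁻¹ * w⁻¹) * (w * a) := by group
      _ = w * a := by rw [h2, one_mul]
  · intro h1
    apply Subtype.ext
    show (a : H) * w * (a : H)⁻¹ * w⁻¹ = 1
    rw [h1]; group

theorem chi_pow (a : (S : Subgroup H)) : h.chi a ^ q = 1 := by
  apply Subtype.ext
  show ((h.chi a : center H) : H) ^ q = 1
  have hz := (h.chi a).2
  set z : H := ((h.chi a : center H) : H) with hzdef
  have h1 : (a : H) * w * (a : H)⁻¹ = z * w := by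
    rw [hzdef, chi_apply]; group
  have hcz : Commute z w := (mem_center_iff.1 hz w).symm
  have h2 : (a : H) * w ^ q * (a : H)⁻¹ = z ^ q * w ^ q := by
    rw [← conj_pow, h1, hcz.mul_pow]
  have h3 : (a : H) * w ^ q * (a : H)⁻¹ = w ^ q := by
    have := mem_center_iff.1 h.powZ (a : H)
    rw [this]; group
  rw [h3] at h2
  have h4 : 1 * w ^ q = z ^ q * w ^ q := by rw [one_mul]; exact h2
  exact (mul_right_cancel h4).symm

theorem pow_mem {a : H} (ha : a ∈ (S : Subgroup H)) : a ^ q ∈ Cn w := by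
  have h1 := h.chi_eq_one_iff ((⟨a, ha⟩ : (S : Subgroup H)) ^ q)
  rw [map_pow, h.chi_pow] at h1
  exact h1.1 rfl

theorem comm_mem {a b : H} (ha : a ∈ (S : Subgroup H)) (hb : b ∈ (S : Subgroup H)) :
    a * b * a⁻¹ * b⁻¹ ∈ Cn w := by
  let x : (S : Subgroup H) := ⟨a, ha⟩
  let y : (S : Subgroup H) := ⟨b, hb⟩
  have h1 := h.chi_eq_one_iff (x * y * x⁻¹ * y⁻¹)
  have h2 : h.chi (x * y * x⁻¹ * y⁻¹) = 1 := by
    have hc : h.chi x * h.chi y = h.chi y * h.chi x :=
      Subtype.ext (mem_center_iff.1 (h.chi y).2 _)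
    rw [map_mul, map_mul, map_mul, map_inv, map_inv, hc]
    group
  exact h1.1 h2

theorem exists_not_mem : ∃ b ∈ (S : Subgroup H), b ∉ Cn w := by
  by_contra hcon
  push Not at hcon
  exact h.nc (h.bad w h.memS (fun a ha => mem_Cn.1 (hcon a ha)))

end TCond

end Sylow

section Core

variable [Finite H] {Θ : ℕ → Prop} (hCS : CS Θ H) {q : ℕ} [hqF : Fact q.Prime]
  {S : Sylow q H} {w : H} (h : TCond q (S : Subgroup H) w)

include hCS h

/-- The rank lemma. -/
theorem rank_T (hq : Θ q) {a b : H} (ha : a ∈ (S : Subgroup H)) (hb : b ∈ (S : Subgroup H))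
    (hbn : b ∉ Cn w) : ∃ j : ℤ, a * b ^ j ∈ Cn w := by
  classical
  by_contra hj
  push Not at hj
  have hwq : QE q w := h.qe_of_mem h.memS
  obtain ⟨t, d, ht, hne, hd, hdn, hwd⟩ := hCS.two q w hq hwq h.nc
  have htp : t.Prime := hCS.prime t ht
  haveI : Fact t.Prime := ⟨htp⟩
  have hdC : d ∈ Cn w := mem_Cn.2 hwd.symm
  let T := qp t (Cn w) (comm_qe hCS hq ht hwq h.nc)
  let π := QuotientGroup.mk' (center H)
  let V := T.map π
  have hπ : ∀ x y : H, π x = π y ↔ x * y⁻¹ ∈ center H := by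
    intro x y
    rw [← div_eq_mul_inv]
    exact QuotientGroup.eq_iff_div_mem
  have hcommV : ∀ x ∈ V, ∀ y ∈ V, x * y = y * x := by
    rintro _ ⟨e, he, rfl⟩ _ ⟨f, hf, rfl⟩
    rw [← map_mul, ← map_mul, comm_qe hCS hq ht hwq h.nc e he.1 f hf.1 he.2 hf.2]
  have hact : ∀ g ∈ (S : Subgroup H), ∀ x ∈ V, π g * x * (π g)⁻¹ ∈ V := by
    rintro g hg _ ⟨e, he, rfl⟩
    refine ⟨g * e * g⁻¹, ⟨h.conj_mem hg he.1, he.2.conj g⟩, ?_⟩
    simp [map_mul, map_inv]
  have hcen : ∀ g ∈ Cn w, ∀ x ∈ V, π g * x = x * π g := by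
    rintro g hg _ ⟨e, he, rfl⟩
    rw [← map_mul, ← map_mul, ← central_in_Cn hCS hq ht hwq h.nc he.2 he.1 hg]
  have hfix : ∀ g ∈ (S : Subgroup H), g ∉ Cn w → ∀ x ∈ V, π g * x * (π g)⁻¹ = x → x = 1 := by
    rintro g hg hgn _ ⟨e, he, rfl⟩ hfx
    have h1 : π (g * e * g⁻¹) = π e := by
      simpa [map_mul, map_inv] using hfx
    have h2 : g * e * g⁻¹ * e⁻¹ ∈ center H := (hπ _ _).1 h1
    have h3 : (orderOf g).Coprime t := QE.coprime_prime hqF.out htp hne.symm (h.qe_of_mem hg)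
    have h4 := fix_central hCS hq ht hwq h.nc h3 hgn he.1 he.2 h2
    exact (QuotientGroup.eq_one_iff e).2 h4
  have key := no_rank_two V hcommV (π a) (π b) (hact a ha) (hact b hb) hqF.out
    (by rw [← map_pow]; exact hcen _ (h.pow_mem ha))
    (by rw [← map_pow]; exact hcen _ (h.pow_mem hb))
    (by
      have h1 := hcen _ (h.comm_mem ha hb)
      simpa [map_mul, map_inv] using h1)
    (hfix b hb hbn)
    (by
      intro j x hx hfx
      have hg : a * b ^ j ∈ (S : Subgroup H) := S.1.mul_mem ha (S.1.zpow_mem hb j)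
      refine hfix _ hg (hj j) x hx ?_
      simpa [map_mul, map_zpow] using hfx)
  have h8 := key (π d) ⟨d, ⟨hdC, hd⟩, rfl⟩
  have h9 : π d = 1 := by
    obtain ⟨f, hf⟩ := hd
    refine eq_one_of_coprime_orders (a := q) (b := t ^ f) ?_ h8 ?_
    · exact Nat.Coprime.pow_right _ ((Nat.coprime_primes hqF.out htp).2 hne.symm)
    · rw [← map_pow, hf, map_one]
  exact hdn ((QuotientGroup.eq_one_iff d).1 h9)

/-- The index of `S ∩ C(w)` in `S` is `q`. -/
theorem relIndex_T (hq : Θ q) : (Cn w).relIndex (S : Subgroup H) = q := by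
  classical
  obtain ⟨b, hb, hbn⟩ := h.exists_not_mem
  have hker : h.chi.ker = (Cn w).subgroupOf (S : Subgroup H) := by
    ext a
    rw [MonoidHom.mem_ker, mem_subgroupOf]
    exact h.chi_eq_one_iff a
  have hrange : h.chi.range = zpowers (h.chi ⟨b, hb⟩) := by
    apply le_antisymm
    · rintro _ ⟨a, rfl⟩
      obtain ⟨j, hj⟩ := rank_T hCS h hq a.2 hb hbn
      have h1 : h.chi (a * (⟨b, hb⟩ : (S : Subgroup H)) ^ j) = 1 := by
        rw [h.chi_eq_one_iff]
        exact hj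
      rw [map_mul, map_zpow] at h1
      have h2 : h.chi a = (h.chi ⟨b, hb⟩ ^ j)⁻¹ := eq_inv_of_mul_eq_one_left h1
      rw [h2]
      exact (zpowers _).inv_mem (zpow_mem_zpowers _ j)
    · rw [zpowers_le]
      exact ⟨_, rfl⟩
  have hord : orderOf (h.chi ⟨b, hb⟩) = q := by
    apply orderOf_eq_prime (h.chi_pow _)
    intro h1
    exact hbn ((h.chi_eq_one_iff _).1 h1)
  show ((Cn w).subgroupOf (S : Subgroup H)).index = q
  rw [← hker, Subgroup.index_ker, hrange, Nat.card_zpowers, hord]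

/-- `q`-elements of `C(w)` lie in `S`. -/
theorem mem_S_of_qe (hq : Θ q) {x : H} (hx : x ∈ Cn w) (hxq : QE q x) : x ∈ (S : Subgroup H) := by
  have hwq : QE q w := h.qe_of_mem h.memS
  let P := qp q (Cn w) (comm_qe hCS hq hq hwq h.nc)
  have hle : P ≤ (S : Subgroup H) := le_sylow_of_normalized S P (isPGroup_qp _ _ _) (by
    rintro a ha e ⟨he, heq⟩
    exact ⟨h.conj_mem ha he, heq.conj a⟩)
  exact hle ⟨hx, hxq⟩

/-- The valuation of `C(w)`. -/
theorem vq_T (hq : Θ q) : vq q (Cn w) + 1 = (Nat.card H).factorization q := by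
  classical
  have hwq : QE q w := h.qe_of_mem h.memS
  let P := qp q (Cn w) (comm_qe hCS hq hq hwq h.nc)
  have h1 : ((Cn w).subgroupOf (S : Subgroup H)).index = q := relIndex_T hCS h hq
  have h2 : ((Cn w).subgroupOf (S : Subgroup H)).index * Nat.card ((Cn w).subgroupOf (S : Subgroup H))
      = Nat.card (S : Subgroup H) := (Cn w).subgroupOf (S : Subgroup H) |>.index_mul_card
  have h3 : Nat.card ((Cn w).subgroupOf (S : Subgroup H)) = Nat.card P := by
    apply Nat.card_congr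
    exact ⟨fun x => ⟨x.1.1, x.2, h.qe_of_mem x.1.2⟩,
      fun x => ⟨⟨x.1, mem_S_of_qe hCS h hq x.2.1 x.2.2⟩, x.2.1⟩, fun _ => rfl, fun _ => rfl⟩
  have h4 : Nat.card P = q ^ vq q (Cn w) := card_qp _ _
  have h5 : Nat.card (S : Subgroup H) = q ^ (Nat.card H).factorization q :=
    Sylow.card_eq_multiplicity S
  rw [h1, h3, h4, h5, ← pow_succ'] at h2
  exact Nat.pow_right_injective hqF.out.two_le h2

/-- Elements outside `C(w)` fix only central `q`-elements of `C(w)`. -/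
theorem fix_T (hq : Θ q) {y f : H} (hy : y ∉ Cn w) (hf : f ∈ Cn w) (hfq : QE q f)
    (hc : f * y = y * f) : f ∈ center H := by
  by_contra hfZ
  have hwq : QE q w := h.qe_of_mem h.memS
  have h1 : Cn w = Cn f := hCS.same q q w f hq hq hwq hfq h.nc hfZ (mem_Cn.1 hf).symm
  apply hy
  rw [h1]
  exact mem_Cn.2 hc.symm

theorem ypow_T (hq : Θ q) {y : H} (hyS : y ∈ (S : Subgroup H)) (hy : y ∉ Cn w) :
    y ^ q ∈ center H :=
  fix_T hCS h hq hy (h.pow_mem hyS) ((h.qe_of_mem hyS).pow q) (by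
    rw [← pow_succ, pow_succ'])

/-- A `q`-element whose `q`-elements of the centralizer lie in `S` has centralizer `C(w)` or a small
`q`-part. -/
theorem eq_or_small (hq : Θ q) {v : H} (hv : QE q v) (hvn : v ∉ center H)
    (hP : ∀ x ∈ Cn v, QE q x → x ∈ (S : Subgroup H)) :
    Cn v = Cn w ∨ vq q (Cn v) = vq q (center H) + 1 := by
  classical
  have hwq : QE q w := h.qe_of_mem h.memS
  by_cases hex : ∃ f ∈ Cn v, QE q f ∧ f ∈ Cn w ∧ f ∉ center H
  · obtain ⟨f, hfv, hfq, hfw, hfZ⟩ := hex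
    left
    rw [hCS.same q q v f hq hq hv hfq hvn hfZ (mem_Cn.1 hfv).symm,
      hCS.same q q w f hq hq hwq hfq h.nc hfZ (mem_Cn.1 hfw).symm]
  · push Not at hex
    right
    let P := qp q (Cn v) (comm_qe hCS hq hq hv hvn)
    have hPS : P ≤ (S : Subgroup H) := fun x hx => hP x hx.1 hx.2
    let S₀ : Subgroup H := (S : Subgroup H) ⊓ Cn w
    have h1 : Nat.card P * Nat.card S₀ ≤ Nat.card (S : Subgroup H) * Nat.card (P ⊓ S₀ : Subgroup H) :=
      card_mul_card_le P S₀ (S : Subgroup H) hPS inf_le_left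
    have h2 : Nat.card (S : Subgroup H) = q * Nat.card S₀ := by
      have h3 := (Cn w).subgroupOf (S : Subgroup H) |>.index_mul_card
      have h4 : ((Cn w).subgroupOf (S : Subgroup H)).index = q := relIndex_T hCS h hq
      have h5 : Nat.card ((Cn w).subgroupOf (S : Subgroup H)) = Nat.card S₀ := by
        apply Nat.card_congr
        exact ⟨fun x => ⟨x.1.1, x.1.2, x.2⟩, fun x => ⟨⟨x.1, x.2.1⟩, x.2.2⟩,
          fun _ => rfl, fun _ => rfl⟩
      rw [h4, h5] at h3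
      exact h3.symm
    have h3 : (P ⊓ S₀ : Subgroup H) ≤ center H := by
      rintro x ⟨hxP, hxS₀⟩
      exact hex x hxP.1 hxP.2 hxS₀.2
    have h4 : IsPGroup q (P ⊓ S₀ : Subgroup H) := by
      apply isPGroup_of_qe
      rintro x ⟨hxP, -⟩
      exact hxP.2
    have h5 := card_le_of_isPGroup h3 h4
    have h6 : Nat.card P = q ^ vq q (Cn v) := card_qp _ _
    rw [h2, h6] at h1
    have h7 : 0 < Nat.card S₀ := Nat.card_pos
    have h8 : q ^ vq q (Cn v) ≤ q * Nat.card (P ⊓ S₀ : Subgroup H) := by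
      have : q ^ vq q (Cn v) * Nat.card S₀ ≤ (q * Nat.card (P ⊓ S₀ : Subgroup H)) * Nat.card S₀ := by
        calc _ ≤ _ := h1
          _ = _ := by ring
      exact Nat.le_of_mul_le_mul_right this h7
    have h9 : q ^ vq q (Cn v) ≤ q ^ (vq q (center H) + 1) := by
      rw [pow_succ']
      exact h8.trans (Nat.mul_le_mul_left q h5)
    have h10 := (Nat.pow_le_pow_iff_right hqF.out.one_lt).1 h9
    have h11 : vq q (center H) < vq q (Cn v) :=
      vq_lt_of_noncentral (fun x hx => mem_Cn.2 (mem_center_iff.1 hx v).symm) (mem_Cn.2 rfl) hv hvn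
    omega

end Core

section Main

variable [Finite H] {Θ : ℕ → Prop} (hCS : CS Θ H)

/-- `q` is a bad prime: Sylow `q`-subgroups have central centre. -/
def Bad (q : ℕ) (H : Type*) [Group H] : Prop :=
  ∀ S : Sylow q H, ∀ z ∈ (S : Subgroup H), (∀ a ∈ (S : Subgroup H), a * z = z * a) → z ∈ center H

/-- `C(u)` is conjugate to `C(v)`. -/
def ConjC (u v : H) : Prop := ∃ g : H, Cn (g * u * g⁻¹) = Cn v

/-- The smallness outcome. -/
def SmallQ (q : ℕ) (v : H) : Prop :=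
  vq q (Cn v) = vq q (center H) + 1 ∧
    ∃ a : H, QE q a ∧ a ∉ Cn v ∧ ∀ x ∈ Cn v, a * x * a⁻¹ ∈ Cn v

theorem ConjC.of_eq {u v : H} (h : Cn u = Cn v) : ConjC u v := ⟨1, by simpa using h⟩

theorem conjC_of_conj {u v : H} (g₁ g₂ : H) (h : Cn (g₁ * u * g₁⁻¹) = Cn (g₂ * v * g₂⁻¹)) :
    ConjC u v := by
  refine ⟨g₂⁻¹ * g₁, ?_⟩
  have h1 := Cn_conj_congr h g₂⁻¹
  have h2 : g₂⁻¹ * g₁ * u * (g₂⁻¹ * g₁)⁻¹ = g₂⁻¹ * (g₁ * u * g₁⁻¹) * g₂⁻¹⁻¹ := by group
  have h3 : g₂⁻¹ * (g₂ * v * g₂⁻¹) * g₂⁻¹⁻¹ = v := by group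
  rw [h2, h1, h3]

theorem vq_Cn_conj {q : ℕ} [Fact q.Prime] (g v : H) : vq q (Cn (g * v * g⁻¹)) = vq q (Cn v) := by
  have h1 := vq_Cn_add (q := q) (g * v * g⁻¹)
  have h2 := vq_Cn_add (q := q) v
  have h3 : cs (g * v * g⁻¹) = cs v := cs_conj g v
  rw [h3] at h1
  omega

include hCS

/-- Conjugate `v` so that all `q`-elements of its centralizer lie in `S`. -/
theorem position {q : ℕ} [Fact q.Prime] (hq : Θ q) (S : Sylow q H) {v : H} (hv : QE q v)
    (hvn : v ∉ center H) :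
    ∃ g : H, ∀ x ∈ Cn (g * v * g⁻¹), QE q x → x ∈ (S : Subgroup H) := by
  let P := qp q (Cn v) (comm_qe hCS hq hq hv hvn)
  obtain ⟨g, hg⟩ := exists_conj_le_sylow' S P (isPGroup_qp _ _ _)
  refine ⟨g, fun x hx hxq => ?_⟩
  have h1 : g⁻¹ * x * g ∈ P := ⟨mem_Cn_conj.1 hx, by
    have := hxq.conj g⁻¹
    simpa using this⟩
  have h2 := hg _ h1
  have h3 : g * (g⁻¹ * x * g) * g⁻¹ = x := by group
  rwa [h3] at h2

/-- In a bad situation some element of `S` outside `C(v)` normalizes `C(v)`. -/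
theorem exists_norm_elt {q : ℕ} [Fact q.Prime] (hq : Θ q) (S : Sylow q H)
    (hbad : ∀ z ∈ (S : Subgroup H), (∀ a ∈ (S : Subgroup H), a * z = z * a) → z ∈ center H)
    {v : H} (hv : QE q v) (hvn : v ∉ center H)
    (hP : ∀ x ∈ Cn v, QE q x → x ∈ (S : Subgroup H)) :
    ∃ a ∈ (S : Subgroup H), a ∉ Cn v ∧ ∀ x ∈ Cn v, a * x * a⁻¹ ∈ Cn v := by
  classical
  have hvC : v ∈ Cn v := mem_Cn.2 rfl
  let P := qp q (Cn v) (comm_qe hCS hq hq hv hvn)
  haveI : Group.IsNilpotent (S : Subgroup H) := S.2.isNilpotent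
  let P' : Subgroup (S : Subgroup H) := P.subgroupOf (S : Subgroup H)
  have hP'top : P' ≠ ⊤ := by
    intro htop
    apply hvn
    apply hbad v (hP v hvC hv)
    intro a ha
    have h1 : (⟨a, ha⟩ : (S : Subgroup H)) ∈ P' := by rw [htop]; trivial
    exact mem_Cn.1 (mem_subgroupOf.1 h1).1
  have hlt := normalizerCondition_of_isNilpotent P' (lt_top_iff_ne_top.2 hP'top)
  obtain ⟨a, ha1, ha2⟩ := SetLike.exists_of_lt hlt
  have hv' : (⟨v, hP v hvC hv⟩ : (S : Subgroup H)) ∈ P' := by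
    rw [mem_subgroupOf]
    exact ⟨hvC, hv⟩
  have h1 : (a : H) * v * (a : H)⁻¹ ∈ P := by
    have := (mem_normalizer_iff.1 ha1 _).1 hv'
    exact mem_subgroupOf.1 this
  have h2 : (a : H) * v * (a : H)⁻¹ ∉ center H := by
    rwa [conj_mem_center_iff]
  have h3 : Cn ((a : H) * v * (a : H)⁻¹) = Cn v :=
    (hCS.same q q v _ hq hq hv h1.2 hvn h2 (mem_Cn.1 h1.1).symm).symm
  refine ⟨a, a.2, ?_, ?_⟩
  · intro hac
    apply ha2
    rw [mem_subgroupOf]
    exact ⟨hac, qe_of_isPGroup S.2 a.2⟩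
  · intro x hx
    have := conj_mem_Cn (g := (a : H)) hx
    rwa [h3] at this

/-- For a bad prime some `q`-element outside `C(v)` normalizes `C(v)`. -/
theorem exists_norm_of_bad {q : ℕ} (hq : Θ q) (hB : Bad q H) {v : H} (hv : QE q v)
    (hvn : v ∉ center H) :
    ∃ a : H, QE q a ∧ a ∉ Cn v ∧ ∀ x ∈ Cn v, a * x * a⁻¹ ∈ Cn v := by
  classical
  haveI : Fact q.Prime := ⟨hCS.prime q hq⟩
  let S : Sylow q H := default
  have hbad := hB S
  obtain ⟨g, hg⟩ := position hCS hq S hv hvn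
  have hv₁q : QE q (g * v * g⁻¹) := hv.conj g
  have hv₁n : g * v * g⁻¹ ∉ center H := by rwa [conj_mem_center_iff]
  obtain ⟨a, haS, han, hac⟩ := exists_norm_elt hCS hq S hbad hv₁q hv₁n hg
  refine ⟨g⁻¹ * a * g, ?_, ?_, ?_⟩
  · have := (qe_of_isPGroup S.2 haS).conj g⁻¹
    simpa using this
  · intro hc
    apply han
    rw [mem_Cn_conj]
    exact hc
  · intro x hx
    have h1 : g * x * g⁻¹ ∈ Cn (g * v * g⁻¹) := conj_mem_Cn hx
    have h2 := hac _ h1
    rw [mem_Cn_conj] at h2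
    have h3 : g⁻¹ * (a * (g * x * g⁻¹) * a⁻¹) * g = g⁻¹ * a * g * x * (g⁻¹ * a * g)⁻¹ := by group
    rwa [h3] at h2

/-- The main dichotomy. -/
theorem lemF {q : ℕ} (hq : Θ q) {v v' : H} (hv : QE q v) (hvn : v ∉ center H) (hv' : QE q v')
    (hvn' : v' ∉ center H) (hle : vq q (Cn v) ≤ vq q (Cn v')) :
    ConjC v' v ∨ SmallQ q v := by
  classical
  haveI : Fact q.Prime := ⟨hCS.prime q hq⟩
  by_cases hB : Bad q H
  · let S : Sylow q H := default
    have hbad := hB S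
    obtain ⟨g, hg⟩ := position hCS hq S hv hvn
    obtain ⟨g', hg'⟩ := position hCS hq S hv' hvn'
    have hv₁q : QE q (g * v * g⁻¹) := hv.conj g
    have hv₁n : g * v * g⁻¹ ∉ center H := by rwa [conj_mem_center_iff]
    have hv₁'q : QE q (g' * v' * g'⁻¹) := hv'.conj g'
    have hv₁'n : g' * v' * g'⁻¹ ∉ center H := by rwa [conj_mem_center_iff]
    have hvS : g * v * g⁻¹ ∈ (S : Subgroup H) := hg _ (mem_Cn.2 rfl) hv₁q
    obtain ⟨w, hwS, hwn, hwc, hwp⟩ := exists_w S hbad hvS hv₁n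
    have hT : TCond q (S : Subgroup H) w := ⟨hwS, hwn, hwc, hwp, hbad⟩
    have hsm : vq q (Cn v) = vq q (center H) + 1 → SmallQ q v :=
      fun hn => ⟨hn, exists_norm_of_bad hCS hq hB hv hvn⟩
    rcases eq_or_small hCS hT hq hv₁q hv₁n hg with h1 | h1
    · rcases eq_or_small hCS hT hq hv₁'q hv₁'n hg' with h2 | h2
      · left
        exact conjC_of_conj g' g (h2.trans h1.symm)
      · right
        apply hsm
        rw [vq_Cn_conj] at h2
        have h3 : vq q (center H) < vq q (Cn v) :=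
          vq_lt_of_noncentral (fun x hx => mem_Cn.2 (mem_center_iff.1 hx v).symm) (mem_Cn.2 rfl) hv hvn
        omega
    · right
      apply hsm
      rwa [vq_Cn_conj] at h1
  · unfold Bad at hB
    push Not at hB
    obtain ⟨S, z, hzS, hzc, hzn⟩ := hB
    have hzq : QE q z := qe_of_isPGroup S.2 hzS
    obtain ⟨g₁, hg₁⟩ := exists_conj_mem_sylow S hv
    obtain ⟨g₂, hg₂⟩ := exists_conj_mem_sylow S hv'
    have h1 : Cn (g₁ * v * g₁⁻¹) = Cn z :=
      hCS.same q q _ z hq hq (hv.conj g₁) hzq (by rwa [conj_mem_center_iff]) hzn (hzc _ hg₁)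
    have h2 : Cn (g₂ * v' * g₂⁻¹) = Cn z :=
      hCS.same q q _ z hq hq (hv'.conj g₂) hzq (by rwa [conj_mem_center_iff]) hzn (hzc _ hg₂)
    left
    exact conjC_of_conj g₂ g₁ (h2.trans h1.symm)

/-- A `q`-element outside `C(u)` normalizing `C(u)`, when `C(u)` has a small `t`-part: `q` divides
`t - 1`. -/
theorem dvd_sub_one_of_small {q t : ℕ} (hq : Θ q) (ht : Θ t) (hne : q ≠ t) {u a : H} (hu : QE q u)
    (hun : u ∉ center H) (ha : QE q a) (han : a ∉ Cn u) (hac : ∀ x ∈ Cn u, a * x * a⁻¹ ∈ Cn u)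
    (hsm : vq t (Cn u) = vq t (center H) + 1) : q ∣ t - 1 := by
  classical
  have hqp := hCS.prime q hq
  have htp := hCS.prime t ht
  haveI : Fact q.Prime := ⟨hqp⟩
  haveI : Fact t.Prime := ⟨htp⟩
  let T := qp t (Cn u) (comm_qe hCS hq ht hu hun)
  let X : Set H := {x | x ∈ T ∧ x ∉ center H}
  have h1 : q ∣ X.ncard := by
    apply dvd_ncard_of_no_fixed ha
    · rintro x ⟨hxT, hxZ⟩
      refine ⟨⟨hac x hxT.1, hxT.2.conj a⟩, ?_⟩
      rwa [conj_mem_center_iff]
    · rintro x ⟨hxT, hxZ⟩ hcomm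
      apply han
      rw [hCS.same q t u x hq ht hu hxT.2 hun hxZ (mem_Cn.1 hxT.1).symm]
      exact mem_Cn.2 hcomm
  have h2 := ncard_diff T (center H)
  have h3 : X.ncard = Nat.card (T ⊓ center H : Subgroup H) * (((center H).subgroupOf T).index - 1) := h2
  have h4 : ((center H).subgroupOf T).index * Nat.card (T ⊓ center H : Subgroup H) = Nat.card T := by
    have := ((center H).subgroupOf T).index_mul_card
    rw [← this]
    congr 1
    apply Nat.card_congr
    exact ⟨fun x => ⟨⟨x.1, x.2.1⟩, x.2.2⟩, fun x => ⟨x.1.1, x.1.2, x.2⟩, fun _ => rfl, fun _ => rfl⟩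
  have h5 : Nat.card T = t ^ (vq t (center H) + 1) := by
    rw [← hsm]; exact card_qp _ _
  have h6 : Nat.card (T ⊓ center H : Subgroup H) = t ^ vq t (center H) := by
    have hle : (T ⊓ center H : Subgroup H) ≤ center H := inf_le_right
    have h7 : (T ⊓ center H : Subgroup H) = qp t (center H) (comm_center t) := by
      ext x
      constructor
      · rintro ⟨hxT, hxZ⟩
        exact ⟨hxZ, hxT.2⟩
      · rintro ⟨hxZ, hxq⟩
        exact ⟨⟨mem_Cn.2 (mem_center_iff.1 hxZ u).symm, hxq⟩, hxZ⟩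
    rw [h7]
    exact card_qp _ _
  have h7 : ((center H).subgroupOf T).index = t := by
    rw [h5, h6, pow_succ] at h4
    have hpos : 0 < t ^ vq t (center H) := pow_pos htp.pos _
    rw [mul_comm] at h4
    exact Nat.eq_of_mul_eq_mul_left hpos h4
  rw [h3, h6, h7] at h1
  have h8 : q.Coprime (t ^ vq t (center H)) :=
    Nat.Coprime.pow_right _ ((Nat.coprime_primes hqp htp).2 hne)
  exact h8.dvd_of_dvd_mul_left h1

/-- Two primes cannot both be small. -/
theorem not_both_small {q t : ℕ} (hq : Θ q) (ht : Θ t) (hne : q ≠ t) {v d : H} (hv : QE q v)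
    (hvn : v ∉ center H) (hd : QE t d) (hdn : d ∉ center H) (hc : v * d = d * v)
    (h1 : SmallQ q v) (h2 : SmallQ t d) : False := by
  have hqp := hCS.prime q hq
  have htp := hCS.prime t ht
  have hCn : Cn v = Cn d := hCS.same q t v d hq ht hv hd hvn hdn hc
  obtain ⟨h1n, a, ha, han, hac⟩ := h1
  obtain ⟨h2n, b, hb, hbn, hbc⟩ := h2
  have h3 : q ∣ t - 1 := dvd_sub_one_of_small hCS hq ht hne hv hvn ha han hac (by rw [hCn]; exact h2n)
  have h4 : t ∣ q - 1 := dvd_sub_one_of_small hCS ht hq hne.symm hd hdn hb hbn hbc (by rw [← hCn]; exact h1n)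
  have h5 : q ≤ t - 1 := Nat.le_of_dvd (by have := htp.two_le; omega) h3
  have h6 : t ≤ q - 1 := Nat.le_of_dvd (by have := hqp.two_le; omega) h4
  have := hqp.two_le
  have := htp.two_le
  omega

/-- The two prime lemma. -/
theorem two_prime {q t : ℕ} (hq : Θ q) (ht : Θ t) (hne : q ≠ t) {v d : H} (hv : QE q v)
    (hvn : v ∉ center H) (hd : QE t d) (hdn : d ∉ center H) (hc : v * d = d * v) :
    (∀ v' : H, QE q v' → v' ∉ center H → vq q (Cn v) ≤ vq q (Cn v') → ConjC v' v) ∨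
    (∀ v' : H, QE t v' → v' ∉ center H → vq t (Cn d) ≤ vq t (Cn v') → ConjC v' d) := by
  by_contra hcon
  push Not at hcon
  obtain ⟨⟨v₁, h1, h2, h3, h4⟩, ⟨v₂, h5, h6, h7, h8⟩⟩ := hcon
  have h9 := (lemF hCS hq hv hvn h1 h2 h3).resolve_left h4
  have h10 := (lemF hCS ht hd hdn h5 h6 h7).resolve_left h8
  exact not_both_small hCS hq ht hne hv hvn hd hdn hc h9 h10

/-- Prime power elements with centralizers of the same order have conjugate centralizers. -/
theorem conj_of_card_eq {q₁ q₂ : ℕ} (hq₁ : Θ q₁) (hq₂ : Θ q₂) {u₁ u₂ : H} (hu₁ : QE q₁ u₁)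
    (hn₁ : u₁ ∉ center H) (hu₂ : QE q₂ u₂) (hn₂ : u₂ ∉ center H)
    (hcard : Nat.card (Cn u₁) = Nat.card (Cn u₂)) : ConjC u₂ u₁ := by
  obtain ⟨t, d, ht, hne, hd, hdn, hc⟩ := hCS.two q₁ u₁ hq₁ hu₁ hn₁
  have hCn : Cn u₁ = Cn d := hCS.same q₁ t u₁ d hq₁ ht hu₁ hd hn₁ hdn hc
  -- in the order-equal situation both primes give a member of `C(u₂)`
  have key : ∀ (ρ : ℕ) (e : H), Θ ρ → QE ρ e → e ∉ center H → Cn e = Cn u₁ →
      (∀ v' : H, QE ρ v' → v' ∉ center H → vq ρ (Cn e) ≤ vq ρ (Cn v') → ConjC v' e) →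
      ConjC u₂ u₁ := by
    intro ρ e hρ he hen hCe hall
    haveI : Fact ρ.Prime := ⟨hCS.prime ρ hρ⟩
    obtain ⟨v', hv'C, hv'q, hv'n⟩ := exists_noncentral_of_vq_le he hen (D := Cn u₂) (by
      rw [hCe]
      show (Nat.card (Cn u₁)).factorization ρ ≤ (Nat.card (Cn u₂)).factorization ρ
      rw [hcard])
    have h1 : Cn u₂ = Cn v' := hCS.same q₂ ρ u₂ v' hq₂ hρ hu₂ hv'q hn₂ hv'n (mem_Cn.1 hv'C).symm
    have h2 : vq ρ (Cn e) ≤ vq ρ (Cn v') := by
      rw [← h1, hCe]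
      show (Nat.card (Cn u₁)).factorization ρ ≤ (Nat.card (Cn u₂)).factorization ρ
      rw [hcard]
    obtain ⟨g, hg⟩ := hall v' hv'q hv'n h2
    refine ⟨g, ?_⟩
    rw [Cn_conj_congr h1 g, hg, hCe]
  rcases two_prime hCS hq₁ ht hne.symm hu₁ hn₁ hd hdn hc with h | h
  · exact key q₁ u₁ hq₁ hu₁ hn₁ rfl h
  · exact key t d ht hd hdn hCn.symm h

/-- The final contradiction: if `C(v)` has the smallest parts, the group is covered by the conjugates
of `C(v)`. -/
theorem ending {q t : ℕ} (hq : Θ q) (ht : Θ t) (hne : q ≠ t) {v d : H} (hv : QE q v)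
    (hvn : v ∉ center H) (hd : QE t d) (hdn : d ∉ center H) (hc : v * d = d * v)
    (hsmall : ∀ g : H, g ∉ center H → vq q (Cn v) ≤ vq q (Cn g) ∧ vq t (Cn v) ≤ vq t (Cn g)) :
    False := by
  classical
  have hCn : Cn v = Cn d := hCS.same q t v d hq ht hv hd hvn hdn hc
  have key : ∀ (ρ : ℕ) (e : H), Θ ρ → QE ρ e → e ∉ center H → Cn e = Cn v →
      (∀ g : H, g ∉ center H → vq ρ (Cn e) ≤ vq ρ (Cn g)) →
      (∀ v' : H, QE ρ v' → v' ∉ center H → vq ρ (Cn e) ≤ vq ρ (Cn v') → ConjC v' e) → False := by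
    intro ρ e hρ he hen hCe hsm hall
    haveI : Fact ρ.Prime := ⟨hCS.prime ρ hρ⟩
    have h1 : Cn v = ⊤ := by
      apply eq_top_of_conj_cover
      intro g
      by_cases hg : g ∈ center H
      · refine ⟨1, ?_⟩
        simp only [one_mul, inv_one, mul_one]
        exact mem_Cn.2 (mem_center_iff.1 hg v).symm
      · obtain ⟨v', hv'C, hv'q, hv'n⟩ := exists_noncentral_of_vq_le he hen (hsm g hg)
        obtain ⟨x, hx⟩ := hall v' hv'q hv'n (hsm v' hv'n)
        refine ⟨x, ?_⟩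
        rw [← hCe, ← hx]
        exact conj_mem_Cn (show g ∈ Cn v' from mem_Cn.2 (mem_Cn.1 hv'C).symm)
    apply hvn
    rw [mem_center_iff]
    intro g
    have : g ∈ Cn v := by rw [h1]; trivial
    exact mem_Cn.1 this
  rcases two_prime hCS hq ht hne hv hvn hd hdn hc with h | h
  · exact key q v hq hv hvn rfl (fun g hg => (hsmall g hg).1) h
  · refine key t d ht hd hdn hCn.symm (fun g hg => ?_) h
    rw [← hCn]
    exact (hsmall g hg).2

end Main

end Cfsg.Agent.Lib.ItoComp
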