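import Mathlib
import Cfsg.Agent.Lib.ItoChain

/-!
# Groups with trivial centre and three class sizes in a chain: basic lemmas

This generalizes the first half of `Lib/ItoChain.lean` from simple groups to groups with trivial
centre.  `HZ` is the chain hypothesis with trivial centre; `HN` adds the non-commuting property.
-/

set_option autoImplicit false
set_option linter.unusedSectionVars false
set_option linter.style.haveILetI false

namespace Cfsg.Agent.Lib.ItoGen

open Subgroup Cfsg Cfsg.Agent.Lib Cfsg.Agent.Lib.CoprimeClass Cfsg.Agent.Lib.ItoChain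
open scoped Pointwise

universe u

variable {G : Type u} [Group G] [Finite G] {ni nj nk : ℕ}

/-- The chain hypothesis with trivial centre. -/
structure HZ (G : Type u) [Group G] (ni nj nk : ℕ) : Prop extends Hyp G ni nj nk where
  cen : center G = ⊥

/-- The chain hypothesis with trivial centre and no commuting elements of type `i` and `k`. -/
structure HN (G : Type u) [Group G] (ni nj nk : ℕ) : Prop extends HZ G ni nj nk where
  nc : ∀ {a b : G}, cs a = ni → cs b = nk → a * b ≠ b * a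

theorem csm (x : G) : cs x * Nat.card (cz x) = Nat.card G := index_mul_card _

theorem comm_mul_of' {u x y : G} (h1 : u * x = x * u) (h2 : u * y = y * u) :
    u * (x * y) = x * y * u := by
  rw [← mul_assoc, h1, mul_assoc, h2, mul_assoc]

theorem cs_ne_one_z (hc : center G = ⊥) {z : G} (hz : z ≠ 1) : cs z ≠ 1 := by
  intro h
  rw [cs_eq_one_iff, hc] at h
  exact hz h

namespace HZ

variable (H : HZ G ni nj nk)
include H

theorem ni_ne_one : ni ≠ 1 := by
  obtain ⟨z, hz, hzi⟩ := H.exi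
  rw [← hzi]; exact cs_ne_one_z H.cen hz

theorem nj_ne_one : nj ≠ 1 := by
  obtain ⟨z, hz, hzi⟩ := H.exj
  rw [← hzi]; exact cs_ne_one_z H.cen hz

theorem nk_ne_one : nk ≠ 1 := by
  obtain ⟨z, hz, hzi⟩ := H.exk
  rw [← hzi]; exact cs_ne_one_z H.cen hz

theorem ne_one_i {a : G} (ha : cs a = ni) : a ≠ 1 := by
  rintro rfl
  rw [cs_one'] at ha
  exact H.ni_ne_one ha.symm

theorem ne_one_j {a : G} (ha : cs a = nj) : a ≠ 1 := by
  rintro rfl
  rw [cs_one'] at ha
  exact H.nj_ne_one ha.symm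

theorem ne_one_k {a : G} (ha : cs a = nk) : a ≠ 1 := by
  rintro rfl
  rw [cs_one'] at ha
  exact H.nk_ne_one ha.symm

/-- The indices `ni` and `nk` are coprime. -/
theorem coprime_ik : Nat.Coprime ni nk := by
  by_contra hc
  obtain ⟨r, hr, hri, hrk⟩ := Nat.Prime.not_coprime_iff_dvd.1 hc
  haveI : Fact r.Prime := ⟨hr⟩
  obtain ⟨z₀, hz₀, hz₀i⟩ := H.exi
  have hrG : r ∣ Nat.card G := by
    refine hri.trans ?_
    rw [← hz₀i]
    exact index_dvd_card _
  let R : Sylow r G := default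
  obtain ⟨z, hzR, hzo, hle⟩ := exists_central (R : Subgroup G) R.isPGroup'
    (R.ne_bot_of_dvd_card hrG)
  have hz1 : z ≠ 1 := by
    rintro rfl
    rw [orderOf_one] at hzo
    exact hr.one_lt.ne hzo
  have hnd := not_dvd_cs_of_sylow R hle
  rcases H.all z hz1 with h | h | h
  · exact hnd (h ▸ hri)
  · exact hnd (h ▸ hri.trans H.dvd)
  · exact hnd (h ▸ hrk)

/-- **M1** -/
theorem m1 {a u : G} (ha : cs a = ni) (hu : u ≠ 1) (hle : cz a ≤ cz u) : cz a = cz u := by
  have hd : cs u ∣ cs a := cs_dvd_of_le hle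
  rw [ha] at hd
  refine eq_of_le_of_cs hle ?_
  rcases H.all u hu with h | h | h
  · rw [ha, h]
  · exfalso
    rw [h] at hd
    exact H.hij (Nat.dvd_antisymm H.dvd hd)
  · exfalso
    rw [h] at hd
    have := Nat.Coprime.eq_one_of_dvd H.coprime_ik.symm hd
    exact H.nk_ne_one this

/-- **M2** -/
theorem m2 {a u : G} (ha : cs a = nk) (hu : u ≠ 1) (hle : cz a ≤ cz u) : cz a = cz u := by
  have hd : cs u ∣ cs a := cs_dvd_of_le hle
  rw [ha] at hd
  refine eq_of_le_of_cs hle ?_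
  rcases H.all u hu with h | h | h
  · exfalso
    rw [h] at hd
    have := Nat.Coprime.eq_one_of_dvd H.coprime_ik hd
    exact H.ni_ne_one this
  · exfalso
    rw [h] at hd
    have := Nat.Coprime.eq_one_of_dvd H.coprime_ik (H.dvd.trans hd)
    exact H.ni_ne_one this
  · rw [ha, h]

/-- **M3** -/
theorem m3 {x u : G} (hx : cs x = nj) (hu : u ≠ 1) (hle : cz u ≤ cz x) : cz u = cz x := by
  have hd : cs x ∣ cs u := cs_dvd_of_le hle
  rw [hx] at hd
  refine eq_of_le_of_cs hle ?_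
  rcases H.all u hu with h | h | h
  · exfalso
    rw [h] at hd
    exact H.hij (Nat.dvd_antisymm H.dvd hd)
  · rw [hx, h]
  · exfalso
    rw [h] at hd
    have := Nat.Coprime.eq_one_of_dvd H.coprime_ik (H.dvd.trans hd)
    exact H.ni_ne_one this

/-- **M3'** -/
theorem m3' {z a : G} (hz : cs z = nj) (ha : a ≠ 1) (hc : a * z = z * a)
    (hco : Nat.Coprime (orderOf a) (orderOf z)) : cz z ≤ cz a := by
  have h1 := H.m3 hz (mul_ne_one_of_coprime ha hc hco) (cz_mul_le_right hc hco)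
  rw [← h1]
  exact cz_mul_le_left hc hco

theorem cs_pow_i {a : G} (ha : cs a = ni) {k : ℕ} (hk : a ^ k ≠ 1) : cs (a ^ k) = ni := by
  have := H.m1 ha hk (cz_pow_le a k)
  show (cz (a ^ k)).index = ni
  rw [← this]
  exact ha

theorem cs_pow_k {a : G} (ha : cs a = nk) {k : ℕ} (hk : a ^ k ≠ 1) : cs (a ^ k) = nk := by
  have := H.m2 ha hk (cz_pow_le a k)
  show (cz (a ^ k)).index = nk
  rw [← this]
  exact ha


end HZ

namespace HN

variable (H : HN G ni nj nk)
include H

theorem ni_ne_one : ni ≠ 1 := H.toHZ.ni_ne_one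
theorem nj_ne_one : nj ≠ 1 := H.toHZ.nj_ne_one
theorem nk_ne_one : nk ≠ 1 := H.toHZ.nk_ne_one
theorem ne_one_i {a : G} (ha : cs a = ni) : a ≠ 1 := H.toHZ.ne_one_i ha
theorem ne_one_j {a : G} (ha : cs a = nj) : a ≠ 1 := H.toHZ.ne_one_j ha
theorem ne_one_k {a : G} (ha : cs a = nk) : a ≠ 1 := H.toHZ.ne_one_k ha
theorem coprime_ik : Nat.Coprime ni nk := H.toHZ.coprime_ik
theorem m1 {a u : G} (ha : cs a = ni) (hu : u ≠ 1) (hle : cz a ≤ cz u) : cz a = cz u := H.toHZ.m1 ha hu hle
theorem m2 {a u : G} (ha : cs a = nk) (hu : u ≠ 1) (hle : cz a ≤ cz u) : cz a = cz u := H.toHZ.m2 ha hu hle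
theorem m3 {x u : G} (hx : cs x = nj) (hu : u ≠ 1) (hle : cz u ≤ cz x) : cz u = cz x := H.toHZ.m3 hx hu hle
theorem m3' {z a : G} (hz : cs z = nj) (ha : a ≠ 1) (hc : a * z = z * a)
    (hco : Nat.Coprime (orderOf a) (orderOf z)) : cz z ≤ cz a := H.toHZ.m3' hz ha hc hco
theorem cs_pow_i {a : G} (ha : cs a = ni) {k : ℕ} (hk : a ^ k ≠ 1) : cs (a ^ k) = ni := H.toHZ.cs_pow_i ha hk
theorem cs_pow_k {a : G} (ha : cs a = nk) {k : ℕ} (hk : a ^ k ≠ 1) : cs (a ^ k) = nk := H.toHZ.cs_pow_k ha hk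

theorem swap (hd : nk ∣ nj) : HN G nk nj ni :=
  { nab := H.nab
    all := fun z hz => by
      rcases H.all z hz with h | h | h
      · exact Or.inr (Or.inr h)
      · exact Or.inr (Or.inl h)
      · exact Or.inl h
    dvd := hd
    hij := H.hkj
    hki := H.hki.symm
    hkj := H.hij
    exi := H.exk
    exj := H.exj
    exk := H.exi
    cen := H.cen
    nc := fun ha hb hab => H.nc hb ha hab.symm }

/-- **L3** -/
theorem l3 {a : G} (ha : cs a = ni) {r : ℕ} (hr : r.Prime) (hd : r ∣ orderOf a) : r ∣ nk := by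
  by_contra hnd
  haveI : Fact r.Prime := ⟨hr⟩
  have ho := exists_pow_prime hd
  set a₀ := a ^ (orderOf a / r) with ha₀
  have ha₀1 : a₀ ≠ 1 := by
    intro h
    rw [h, orderOf_one] at ho
    exact hr.one_lt.ne ho
  have hc := H.cs_pow_i ha ha₀1
  obtain ⟨b, hb, hbk⟩ := H.exk
  obtain ⟨g, hg⟩ := exists_conj_mem_of_not_dvd (p := r) (cz b) (by
    show ¬ r ∣ cs b
    rw [hbk]; exact hnd) (u := a₀) (k := 1) (by
    rw [pow_one, ← ho]; exact pow_orderOf_eq_one _)
  exact H.nc (a := g⁻¹ * a₀ * g) (by rw [cs_conj', hc]) hbk (mem_cent.1 hg)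

/-- **L3'** -/
theorem l3' {b : G} (hb : cs b = nk) {r : ℕ} (hr : r.Prime) (hd : r ∣ orderOf b) : r ∣ ni := by
  by_contra hnd
  haveI : Fact r.Prime := ⟨hr⟩
  have ho := exists_pow_prime hd
  set b₀ := b ^ (orderOf b / r) with hb₀
  have hb₀1 : b₀ ≠ 1 := by
    intro h
    rw [h, orderOf_one] at ho
    exact hr.one_lt.ne ho
  have hc := H.cs_pow_k hb hb₀1
  obtain ⟨a, ha, hai⟩ := H.exi
  obtain ⟨g, hg⟩ := exists_conj_mem_of_not_dvd (p := r) (cz a) (by
    show ¬ r ∣ cs a
    rw [hai]; exact hnd) (u := b₀) (k := 1) (by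
    rw [pow_one, ← ho]; exact pow_orderOf_eq_one _)
  exact H.nc (b := g⁻¹ * b₀ * g) hai (by rw [cs_conj', hc]) (mem_cent.1 hg).symm

/-- **L4** -/
theorem l4 {r : ℕ} (hr : r.Prime) (hd : r ∣ Nat.card G) : r ∣ ni ∨ r ∣ nk := by
  by_contra hcon
  push Not at hcon
  obtain ⟨hri, hrk⟩ := hcon
  haveI : Fact r.Prime := ⟨hr⟩
  let R : Sylow r G := default
  obtain ⟨z, hzR, hzo, hle⟩ := exists_central (R : Subgroup G) R.isPGroup'
    (R.ne_bot_of_dvd_card hd)
  have hz1 : z ≠ 1 := by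
    rintro rfl
    rw [orderOf_one] at hzo
    exact hr.one_lt.ne hzo
  obtain ⟨a₀, ha₀, ha₀i⟩ := H.exi
  obtain ⟨b₀, hb₀, hb₀k⟩ := H.exk
  obtain ⟨g, hg⟩ := exists_conj_cz_le R a₀ (by rw [ha₀i]; exact hri)
  obtain ⟨g', hg'⟩ := exists_conj_cz_le R b₀ (by rw [hb₀k]; exact hrk)
  set a' := g * a₀ * g⁻¹ with ha'
  set b' := g' * b₀ * g'⁻¹ with hb'
  have hai : cs a' = ni := by rw [ha', cs_conj, ha₀i]
  have hbk : cs b' = nk := by rw [hb', cs_conj, hb₀k]
  have hza : z * a' = a' * z := mem_cent.1 (hg hzR)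
  have hzb : z * b' = b' * z := mem_cent.1 (hg' hzR)
  have hzj : cs z = nj := by
    rcases H.all z hz1 with h | h | h
    · exact absurd hzb (H.nc h hbk)
    · exact h
    · exact absurd hza.symm (H.nc hai h)
  have hco1 : Nat.Coprime (orderOf a') (orderOf z) := by
    rw [hzo, Nat.coprime_comm, Nat.Prime.coprime_iff_not_dvd hr]
    intro h
    exact hrk (H.l3 hai hr h)
  have hco2 : Nat.Coprime (orderOf b') (orderOf z) := by
    rw [hzo, Nat.coprime_comm, Nat.Prime.coprime_iff_not_dvd hr]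
    intro h
    exact hri (H.l3' hbk hr h)
  have h1 := H.m3' hzj (H.ne_one_i hai) hza.symm hco1
  have h2 := H.m3' hzj (H.ne_one_k hbk) hzb.symm hco2
  have h3 : a' ∈ cz z := mem_cent.2 hza.symm
  exact H.nc hai hbk (mem_cent.1 (h2 h3))

/-- **L5** -/
theorem l5 {r : ℕ} [Fact r.Prime] (hd : r ∣ ni) (R : Sylow r G) {z : G} (hz : z ≠ 1)
    (hle : (R : Subgroup G) ≤ cz z) : cs z = nk := by
  have hnd := not_dvd_cs_of_sylow R hle
  rcases H.all z hz with h | h | h
  · exact absurd (h ▸ hd) hnd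
  · exact absurd (h ▸ hd.trans H.dvd) hnd
  · exact h

/-- **L6** -/
theorem l6 {a : G} (ha : cs a = ni) {r : ℕ} (hr : r.Prime) (hd : r ∣ ni) :
    ¬ r ∣ Nat.card (cz a) := by
  intro hdc
  haveI : Fact r.Prime := ⟨hr⟩
  obtain ⟨w', hw'⟩ := exists_prime_orderOf_dvd_card' (G := cz a) r hdc
  set w : G := (w' : G) with hw
  have hwo : orderOf w = r := by rw [hw, Subgroup.orderOf_coe, hw']
  have hw1 : w ≠ 1 := by
    intro h
    rw [h, orderOf_one] at hwo
    exact hr.one_lt.ne hwo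
  have hwa : w * a = a * w := mem_cent.1 w'.2
  have hcoprime := H.coprime_ik
  have hrk : ¬ r ∣ nk := fun h => (Nat.Prime.not_coprime_iff_dvd.2 ⟨r, hr, hd, h⟩) hcoprime
  have hwj : cs w = nj := by
    rcases H.all w hw1 with h | h | h
    · exact absurd (H.l3 h hr (by rw [hwo])) hrk
    · exact h
    · exact absurd hwa.symm (H.nc ha h)
  have hco : Nat.Coprime (orderOf a) (orderOf w) := by
    rw [hwo, Nat.coprime_comm, Nat.Prime.coprime_iff_not_dvd hr]
    intro h
    exact hrk (H.l3 ha hr h)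
  have hle := H.m3' hwj (H.ne_one_i ha) hwa.symm hco
  -- a Sylow subgroup through `w`
  have hP : IsPGroup r (zpowers w) := by
    rw [IsPGroup.iff_card, Nat.card_zpowers, hwo]
    exact ⟨1, (pow_one r).symm⟩
  obtain ⟨R, hR⟩ := hP.exists_le_sylow
  have hrG : r ∣ Nat.card G := by
    refine hd.trans ?_
    rw [← ha]
    exact index_dvd_card _
  obtain ⟨z, hzR, hzo, hzle⟩ := exists_central (R : Subgroup G) R.isPGroup'
    (R.ne_bot_of_dvd_card hrG)
  have hz1 : z ≠ 1 := by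
    rintro rfl
    rw [orderOf_one] at hzo
    exact hr.one_lt.ne hzo
  have hzk := H.l5 hd R hz1 hzle
  have hwR : w ∈ (R : Subgroup G) := hR (mem_zpowers w)
  have hzw : w * z = z * w := mem_cent.1 (hzle hwR)
  have hz2 : z ∈ cz w := mem_cent.2 hzw.symm
  have hz3 : z ∈ cz a := hle hz2
  exact H.nc ha hzk (mem_cent.1 hz3).symm

/-- **L7** -/
theorem l7 {b x : G} (hb : cs b = nk) (hx : x ≠ 1) (hle : cz x ≤ cz b) : cz x = cz b := by
  have hd : cs b ∣ cs x := cs_dvd_of_le hle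
  rw [hb] at hd
  refine eq_of_le_of_cs hle ?_
  rcases H.all x hx with h | h | h
  · exfalso
    rw [h] at hd
    have := Nat.Coprime.eq_one_of_dvd H.coprime_ik.symm hd
    exact H.nk_ne_one this
  · exfalso
    rw [h] at hd
    have H' := H.swap hd
    -- a prime dividing the order of the centralizer of `x`
    have hxo : orderOf x ≠ 1 := fun h1 => hx (orderOf_eq_one_iff.1 h1)
    obtain ⟨p, hp, hpd⟩ := Nat.exists_prime_and_dvd hxo
    have hpx : p ∣ Nat.card (cz x) := by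
      refine hpd.trans ?_
      have : x ∈ cz x := mem_cent.2 rfl
      exact Subgroup.orderOf_dvd_natCard _ this
    have hpb : p ∣ Nat.card (cz b) := hpx.trans (Subgroup.card_dvd_of_le hle)
    have hpk : ¬ p ∣ nk := fun h2 => H'.l6 hb hp h2 hpb
    obtain ⟨a, ha1, hai⟩ := H.exi
    have hpa : p ∣ Nat.card (cz a) := by
      refine hpx.trans ?_
      obtain ⟨t, ht⟩ := H.dvd
      have e1 := csm x
      have e2 := csm a
      rw [h, ht] at e1
      rw [hai] at e2
      have hnipos : 0 < ni := Nat.pos_of_ne_zero (by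
        rw [← hai]; exact index_ne_zero_of_finite)
      have e3 : Nat.card (cz a) = t * Nat.card (cz x) := by
        apply Nat.eq_of_mul_eq_mul_left hnipos
        rw [e2, ← e1]
        ring
      rw [e3]
      exact Dvd.intro_left _ rfl
    have hpi : ¬ p ∣ ni := fun h2 => H.l6 hai hp h2 hpa
    have hpG : p ∣ Nat.card G := hpa.trans (Subgroup.card_subgroup_dvd_card _)
    rcases H.l4 hp hpG with h3 | h3
    · exact hpi h3
    · exact hpk h3
  · rw [hb, h]

theorem central_of_base {b y : G} (hb : cs b = nk) (hy : y ∈ cz b)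
    (hco : Nat.Coprime (orderOf b) (orderOf y)) : cz b ≤ cz y := by
  have hc : b * y = y * b := (mem_cent.1 hy).symm
  have h1 : cz (b * y) = cz b :=
    H.l7 hb (mul_ne_one_of_coprime (H.ne_one_k hb) hc hco) (cz_mul_le_left hc hco)
  rw [← h1]
  exact cz_mul_le_right hc hco


end HN

end Cfsg.Agent.Lib.ItoGen
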