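import Mathlib
import Cfsg.Agent.Lib.ItoGen1
import Cfsg.Agent.Lib.ClassPPow
import Cfsg.Agent.Lib.FrobCompl
import Cfsg.Agent.Lib.FpfNorm
import Cfsg.Agent.Lib.PCore

/-!
# Three class sizes in a chain: the centralizer of an element with class size `nk`

Under the hypothesis `HN`, there is a subgroup `B` of order `ni` and index `nk`, with every
non-identity element of `B` having centralizer exactly `B`.
-/

set_option autoImplicit false
set_option linter.unusedSectionVars false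
set_option linter.style.haveILetI false

namespace Cfsg.Agent.Lib.ItoGen

open Subgroup Cfsg Cfsg.Agent.Lib Cfsg.Agent.Lib.CoprimeClass Cfsg.Agent.Lib.ItoChain
open scoped Pointwise

universe u

variable {G : Type u} [Group G] [Finite G] {ni nj nk : ℕ}

theorem closure_comm {S : Set G} (h : ∀ x ∈ S, ∀ y ∈ S, x * y = y * x) {x y : G}
    (hx : x ∈ closure S) (hy : y ∈ closure S) : x * y = y * x := by
  have h1 : closure S ≤ centralizer S := by
    rw [closure_le]
    intro x hx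
    rw [SetLike.mem_coe, mem_centralizer_iff]
    intro y hy
    exact h y hy x hx
  have h2 : S ⊆ centralizer (closure S : Set G) := by
    intro x hx
    rw [SetLike.mem_coe, mem_centralizer_iff]
    intro y hy
    exact ((mem_centralizer_iff.1 (h1 hy)) x hx).symm
  have h3 : closure S ≤ centralizer (closure S : Set G) := (closure_le _).2 h2
  exact (mem_centralizer_iff.1 (h3 hy)) x hx

theorem pow_eq_one_of_closure {S : Set G} (h : ∀ x ∈ S, ∀ y ∈ S, x * y = y * x) {n : ℕ}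
    (hn : ∀ x ∈ S, x ^ n = 1) {x : G} (hx : x ∈ closure S) : x ^ n = 1 := by
  induction hx using Subgroup.closure_induction with
  | mem x hx => exact hn x hx
  | one => exact one_pow n
  | mul x y hx hy ihx ihy =>
    have hc : Commute x y := closure_comm h hx hy
    rw [hc.mul_pow, ihx, ihy, one_mul]
  | inv x hx ih => rw [inv_pow, ih, inv_one]

namespace HN

variable (H : HN G ni nj nk)
include H

/-- The order of the centralizer of an element of class size `nk`. -/
theorem card_cz_k {b : G} (hb : cs b = nk) : Nat.card (cz b) = ni := by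
  have hb1 := H.ne_one_k hb
  have hbo : orderOf b ≠ 1 := fun h1 => hb1 (orderOf_eq_one_iff.1 h1)
  obtain ⟨q, hq, hqd⟩ := Nat.exists_prime_and_dvd hbo
  have hbq := exists_pow_prime hqd
  set b₀ := b ^ (orderOf b / q) with hb₀_def
  have hb₀1 : b₀ ≠ 1 := by
    intro h
    rw [h, orderOf_one] at hbq
    exact hq.one_lt.ne hbq
  have hb₀k : cs b₀ = nk := H.cs_pow_k hb hb₀1
  have heq : cz b = cz b₀ := H.m2 hb hb₀1 (cz_pow_le b _)
  obtain ⟨a₀, ha₀, ha₀i⟩ := H.exi
  have hni0 : ni ≠ 0 := by rw [← ha₀i]; exact index_ne_zero_of_finite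
  have hGi := csm a₀
  have hGk := csm b
  rw [ha₀i] at hGi
  rw [hb] at hGk
  have hniB : ni ∣ Nat.card (cz b) := by
    have h1 : ni ∣ nk * Nat.card (cz b) := by
      rw [hGk, ← hGi]
      exact Dvd.intro _ rfl
    exact H.coprime_ik.dvd_of_dvd_mul_left h1
  have hB_primes : ∀ s : ℕ, s.Prime → s ∣ Nat.card (cz b) → s ∣ ni := by
    intro s hs hsd
    haveI : Fact s.Prime := ⟨hs⟩
    by_cases hsq : s = q
    · subst hsq
      exact H.l3' hb hs hqd
    obtain ⟨u', hu'⟩ := exists_prime_orderOf_dvd_card' (G := cz b) s hsd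
    have huo : orderOf (u' : G) = s := by rw [Subgroup.orderOf_coe, hu']
    have hu1 : (u' : G) ≠ 1 := by
      intro h
      rw [h, orderOf_one] at huo
      exact hs.one_lt.ne huo
    have hu'b₀ : (u' : G) ∈ cz b₀ := by
      rw [← heq]
      exact u'.2
    have hle := H.central_of_base hb₀k hu'b₀ (by
      rw [hbq, huo]
      exact (Nat.coprime_primes hq hs).2 (Ne.symm hsq))
    have heq2 := H.m2 hb₀k hu1 hle
    have huk : cs (u' : G) = nk := by
      show (cz (u' : G)).index = nk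
      rw [← heq2]
      exact hb₀k
    exact H.l3' huk hs (by rw [huo])
  obtain ⟨t, ht⟩ := hniB
  have hcza : Nat.card (cz a₀) = nk * t := by
    apply Nat.eq_of_mul_eq_mul_left (Nat.pos_of_ne_zero hni0)
    rw [hGi, ← hGk, ht]
    ring
  have ht1 : t = 1 := by
    by_contra ht1
    obtain ⟨s, hs, hst⟩ := Nat.exists_prime_and_dvd ht1
    have h1 : s ∣ ni := hB_primes s hs (by rw [ht]; exact Dvd.dvd.mul_left hst _)
    exact H.l6 ha₀i hs h1 (by rw [hcza]; exact Dvd.dvd.mul_left hst _)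
  subst ht1
  rw [mul_one] at ht
  exact ht

theorem card_G : Nat.card G = ni * nk := by
  obtain ⟨b, hb1, hb⟩ := H.exk
  have := csm b
  rw [hb, H.card_cz_k hb] at this
  rw [← this, mul_comm]

theorem card_cz_i {a : G} (ha : cs a = ni) : Nat.card (cz a) = nk := by
  have h1 := csm a
  rw [ha, H.card_G] at h1
  have hni0 : ni ≠ 0 := by rw [← ha]; exact index_ne_zero_of_finite
  exact Nat.eq_of_mul_eq_mul_left (Nat.pos_of_ne_zero hni0) h1

/-- A type `j` centralizer. -/
theorem card_cz_j_dvd {x : G} (hx : cs x = nj) : Nat.card (cz x) ∣ nk := by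
  have h1 := csm x
  rw [hx, H.card_G] at h1
  obtain ⟨m, hm⟩ := H.dvd
  rw [hm] at h1
  have hni0 : ni ≠ 0 := by
    obtain ⟨a₀, ha₀, ha₀i⟩ := H.exi
    rw [← ha₀i]; exact index_ne_zero_of_finite
  have h2 : m * Nat.card (cz x) = nk := by
    apply Nat.eq_of_mul_eq_mul_left (Nat.pos_of_ne_zero hni0)
    rw [← h1]
    ring
  exact Dvd.intro_left _ h2

/-- Centralizers of type `k` are TI when `ni` has a prime different from `q`. -/
theorem isCB_of_two_primes {b : G} {q r : ℕ} (hq : q.Prime) (hbo : orderOf b = q)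
    (hbk : cs b = nk) (hr : r.Prime) (hrq : r ≠ q) (hri : r ∣ ni) : ItoChar.IsCB (cz b) := by
  haveI : Fact r.Prime := ⟨hr⟩
  haveI : Fact q.Prime := ⟨hq⟩
  have hniB : r ∣ Nat.card (cz b) := by rw [H.card_cz_k hbk]; exact hri
  obtain ⟨y', hy'⟩ := exists_prime_orderOf_dvd_card' (G := cz b) r hniB
  set y : G := (y' : G) with hy_def
  have hyo : orderOf y = r := by rw [hy_def, Subgroup.orderOf_coe, hy']
  have hy1 : y ≠ 1 := by
    intro h
    rw [h, orderOf_one] at hyo
    exact hr.one_lt.ne hyo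
  have hcoprq : Nat.Coprime q r := (Nat.coprime_primes hq hr).2 hrq.symm
  have hle1 : cz b ≤ cz y := H.central_of_base hbk y'.2 (by rw [hbo, hyo]; exact hcoprq)
  have heq1 : cz b = cz y := H.m2 hbk hy1 hle1
  have hyk : cs y = nk := by
    show (cz y).index = nk
    rw [← heq1]
    exact hbk
  have hcent : ∀ v ∈ cz b, cz b ≤ cz v := by
    intro v hv
    obtain ⟨v₁, v₂, hvv, hcomm, ⟨n, hn⟩, hco, hm1, hm2⟩ :=
      PResid.exists_decomp (p := q) v
    have hv₁ : v₁ ∈ cz b := (zpowers_le.2 hv) hm1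
    have hv₂ : v₂ ∈ cz b := (zpowers_le.2 hv) hm2
    have h1 : cz b ≤ cz v₂ := H.central_of_base hbk hv₂ (by rw [hbo]; exact hco.symm)
    have h2 : cz b ≤ cz v₁ := by
      rw [heq1]
      refine H.central_of_base hyk (by rw [← heq1]; exact hv₁) ?_
      rw [hyo]
      have h3 : orderOf v₁ ∣ q ^ n := orderOf_dvd_of_pow_eq_one hn
      exact Nat.Coprime.coprime_dvd_right h3 (Nat.Coprime.pow_right n hcoprq.symm)
    intro u hu
    rw [hvv]
    rw [mem_cent]
    have e1 : u * v₁ = v₁ * u := mem_cent.1 (h2 hu)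
    have e2 : u * v₂ = v₂ * u := mem_cent.1 (h1 hu)
    rw [← mul_assoc, e1, mul_assoc, e2, mul_assoc]
  intro u hu hu1
  exact (H.m2 hbk hu1 (hcent u hu)).symm

/-- The centralizers of `q`-elements when `ni` is a power of `q`. -/
theorem cs_qelt {q e : ℕ} (hq : q.Prime) (hni : ni = q ^ e) {u : G} (hu1 : u ≠ 1) {n : ℕ}
    (hun : u ^ (q ^ n) = 1) : cs u = nk := by
  have hqi : q ∣ ni := by
    rw [hni]
    refine dvd_pow_self q ?_
    rintro rfl
    exact H.ni_ne_one (by rw [hni, pow_zero])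
  have hqk : ¬ q ∣ nk := fun h => (Nat.Prime.not_coprime_iff_dvd.2 ⟨q, hq, hqi, h⟩) H.coprime_ik
  have hqo : q ∣ orderOf u := by
    have h1 : orderOf u ∣ q ^ n := orderOf_dvd_of_pow_eq_one hun
    obtain ⟨k, hk, hk2⟩ := (Nat.dvd_prime_pow hq).1 h1
    rw [hk2]
    refine dvd_pow_self q ?_
    rintro rfl
    rw [pow_zero, orderOf_eq_one_iff] at hk2
    exact hu1 hk2
  have hqc : q ∣ Nat.card (cz u) :=
    hqo.trans (Subgroup.orderOf_dvd_natCard _ (mem_cent.2 rfl))
  rcases H.all u hu1 with h | h | h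
  · exact absurd hqc (H.l6 h hq hqi)
  · exact absurd (hqc.trans (H.card_cz_j_dvd h)) hqk
  · exact h

theorem isPGroup_cz_of_k {q e : ℕ} (hq : q.Prime) (hni : ni = q ^ e) {u : G} (hu : cs u = nk) :
    IsPGroup q (cz u) := by
  haveI : Fact q.Prime := ⟨hq⟩
  rw [IsPGroup.iff_card]
  exact ⟨e, by rw [H.card_cz_k hu, hni]⟩

/-- Prime power case with nontrivial `O_q(G)`. -/
theorem isCB_of_pCore {q e : ℕ} [hq : Fact q.Prime] (hni : ni = q ^ e) {t : G} (ht : t ∈ pCore q G)
    (ht1 : t ≠ 1) : cs t = nk ∧ ItoChar.IsCB (cz t) := by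
  have hqi : q ∣ ni := by
    rw [hni]
    refine dvd_pow_self q ?_
    rintro rfl
    exact H.ni_ne_one (by rw [hni, pow_zero])
  have hqk : ¬ q ∣ nk := fun h => (Nat.Prime.not_coprime_iff_dvd.2 ⟨q, hq.out, hqi, h⟩) H.coprime_ik
  have hTp : IsPGroup q (pCore q G) := PCore.isPGroup_pCore q
  have hT : ∀ {w : G} (hw : w ∈ pCore q G), ∃ n : ℕ, w ^ (q ^ n) = 1 := by
    intro w hw
    obtain ⟨n, hn⟩ := (IsPGroup.iff_orderOf.1 hTp) ⟨w, hw⟩
    refine ⟨n, ?_⟩
    rw [← hn]
    have := pow_orderOf_eq_one (⟨w, hw⟩ : pCore q G)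
    have h2 := congrArg Subtype.val this
    simp only [Subgroup.orderOf_mk] at h2
    simpa using h2
  obtain ⟨n, hn⟩ := hT ht
  have htk := H.cs_qelt hq.out hni ht1 hn
  have hall : ∀ {u : G} {m : ℕ}, u ≠ 1 → u ^ (q ^ m) = 1 → u ∈ cz t := by
    intro u m hu1 hum
    have huk := H.cs_qelt hq.out hni hu1 hum
    have h1 : pCore q G ≤ cz u := by
      refine normal_le_of_coprime _ _ ?_
      obtain ⟨k, hk⟩ := IsPGroup.iff_card.1 hTp
      show Nat.Coprime _ (cs u)
      rw [hk, huk]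
      refine Nat.Coprime.pow_left k ?_
      exact (Nat.Prime.coprime_iff_not_dvd hq.out).2 hqk
    have h2 := mem_cent.1 (h1 ht)
    exact mem_cent.2 h2.symm
  refine ⟨htk, ?_⟩
  intro u hu hu1
  have hp := H.isPGroup_cz_of_k hq.out hni htk
  obtain ⟨m, hm⟩ := hp ⟨u, hu⟩
  have hum : u ^ (q ^ m) = 1 := by simpa using congrArg Subtype.val hm
  have huk := H.cs_qelt hq.out hni hu1 hum
  have hp2 := H.isPGroup_cz_of_k hq.out hni huk
  have hle : cz u ≤ cz t := by
    intro v hv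
    obtain ⟨l, hl⟩ := hp2 ⟨v, hv⟩
    have hvl : v ^ (q ^ l) = 1 := by simpa using congrArg Subtype.val hl
    by_cases hv1 : v = 1
    · rw [hv1]; exact one_mem _
    · exact hall hv1 hvl
  exact Subgroup.eq_of_le_of_card_ge hle (by
    rw [H.card_cz_k htk, H.card_cz_k huk])

/-- Prime power case with trivial `O_q(G)`. -/
theorem isCB_of_pCore_bot {q e : ℕ} [hq : Fact q.Prime] (hni : ni = q ^ e) (hT : pCore q G = ⊥)
    {b : G} (hbo : orderOf b = q) (hbk : cs b = nk) : ItoChar.IsCB (cz b) := by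
  classical
  have hqi : q ∣ ni := by
    rw [hni]
    refine dvd_pow_self q ?_
    rintro rfl
    exact H.ni_ne_one (by rw [hni, pow_zero])
  have hqk : ¬ q ∣ nk := fun h => (Nat.Prime.not_coprime_iff_dvd.2 ⟨q, hq.out, hqi, h⟩) H.coprime_ik
  obtain ⟨a₀, ha₀, ha₀i⟩ := H.exi
  set S : Set G := Group.conjugatesOfSet ({a₀} : Set G) with hS
  have hmemS : ∀ x ∈ S, ∃ g : G, x = g * a₀ * g⁻¹ := by
    intro x hx
    rw [hS, Group.mem_conjugatesOfSet_iff] at hx
    obtain ⟨a, ha, hconj⟩ := hx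
    rw [Set.mem_singleton_iff] at ha
    subst ha
    obtain ⟨c, hc⟩ := isConj_iff.1 hconj
    exact ⟨c, hc.symm⟩
  have hScomm : ∀ x ∈ S, ∀ y ∈ S, x * y = y * x := by
    intro x hx y hy
    obtain ⟨g, rfl⟩ := hmemS x hx
    obtain ⟨h, rfl⟩ := hmemS y hy
    have h1 := ClassPPow.commutator_conj_mem_pCore (p := q) a₀ ⟨e, by
      show cs a₀ = q ^ e
      rw [ha₀i, hni]⟩ g h
    rw [hT, mem_bot, mul_inv_eq_one, mul_inv_eq_iff_eq_mul] at h1
    exact h1
  set V : Subgroup G := normalClosure ({a₀} : Set G) with hV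
  have hVS : V = closure S := rfl
  haveI hVn : V.Normal := normalClosure_normal
  have hVcomm : ∀ x ∈ V, ∀ y ∈ V, x * y = y * x := by
    intro x hx y hy
    exact closure_comm hScomm hx hy
  have ha₀V : a₀ ∈ V := subset_normalClosure rfl
  have hco : Nat.Coprime (orderOf a₀) q := by
    rw [Nat.coprime_comm, Nat.Prime.coprime_iff_not_dvd hq.out]
    intro hd
    exact hqk (H.l3 ha₀i hq.out hd)
  have hVpow : ∀ x ∈ V, x ^ orderOf a₀ = 1 := by
    intro x hx
    refine pow_eq_one_of_closure hScomm (n := orderOf a₀) ?_ hx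
    intro y hy
    obtain ⟨g, rfl⟩ := hmemS y hy
    rw [← orderOf_conj g a₀]
    exact pow_orderOf_eq_one _
  letI cg : CommGroup V :=
    { (inferInstance : Group V) with
      mul_comm := fun a b => Subtype.ext (hVcomm a a.2 b b.2) }
  haveI : Nontrivial V := ⟨⟨⟨a₀, ha₀V⟩, 1, fun h => H.ne_one_i ha₀i (congrArg Subtype.val h)⟩⟩
  have hAV : cz b ≤ normalizer (V : Set G) := by
    rw [normalizer_eq_top_iff.2 hVn]
    exact le_top
  have hAp := H.isPGroup_cz_of_k hq.out hni hbk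
  have hfpf : FpfNorm.IsFpf (FpfNorm.conjHom (cz b) V hAV) := by
    refine FpfNorm.conjHom_fpf (cz b) V hAV ?_
    intro u hu hu1
    rw [eq_bot_iff]
    intro v hv
    obtain ⟨hv1, hv2⟩ := mem_inf.1 hv
    rw [mem_bot]
    obtain ⟨m, hm⟩ := hAp ⟨u, hu⟩
    have hum : u ^ (q ^ m) = 1 := by simpa using congrArg Subtype.val hm
    have huk := H.cs_qelt hq.out hni hu1 hum
    obtain ⟨l, hl⟩ := H.isPGroup_cz_of_k hq.out hni huk ⟨v, hv2⟩
    have hvl : v ^ (q ^ l) = 1 := by simpa using congrArg Subtype.val hl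
    have h1 : orderOf v ∣ q ^ l := orderOf_dvd_of_pow_eq_one hvl
    have h2 : orderOf v ∣ orderOf a₀ := orderOf_dvd_of_pow_eq_one (hVpow v hv1)
    have h3 : orderOf v = 1 :=
      Nat.eq_one_of_dvd_coprimes (Nat.Coprime.pow_right l hco) h2 h1
    exact orderOf_eq_one_iff.1 h3
  have hfpf' : @FpfNorm.IsFpf (cz b) _ V cg.toGroup (FpfNorm.conjHom (cz b) V hAV) := hfpf
  have huniq := FrobCompl.unique_subgroup_of_fpf (V := V) hAp hfpf'
  -- the unique subgroup of order `q`
  intro u hu hu1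
  have hb1 : b ≠ 1 := H.ne_one_k hbk
  have hbB : b ∈ cz b := mem_cent.2 rfl
  have huo : orderOf u ≠ 1 := fun h1 => hu1 (orderOf_eq_one_iff.1 h1)
  obtain ⟨m, hm⟩ := hAp ⟨u, hu⟩
  have hum : u ^ (q ^ m) = 1 := by simpa using congrArg Subtype.val hm
  obtain ⟨s, hs, hsd⟩ := Nat.exists_prime_and_dvd huo
  have hsq : s = q := by
    have h1 : orderOf u ∣ q ^ m := orderOf_dvd_of_pow_eq_one hum
    exact (Nat.prime_dvd_prime_iff_eq hs hq.out).1 (hs.dvd_of_dvd_pow (hsd.trans h1))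
  subst hsq
  have hu₁o := exists_pow_prime hsd
  set u₁ := u ^ (orderOf u / s) with hu₁_def
  have hu₁B : u₁ ∈ cz b := pow_mem hu _
  have hu₁1 : u₁ ≠ 1 := by
    intro h
    rw [h, orderOf_one] at hu₁o
    exact hs.one_lt.ne hu₁o
  have h1 : (zpowers (⟨u₁, hu₁B⟩ : cz b)) = zpowers (⟨b, hbB⟩ : cz b) := by
    apply huniq
    · rw [Nat.card_zpowers, Subgroup.orderOf_mk, hu₁o]
    · rw [Nat.card_zpowers, Subgroup.orderOf_mk, hbo]
  have h2 : (⟨b, hbB⟩ : cz b) ∈ zpowers (⟨u₁, hu₁B⟩ : cz b) := by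
    rw [h1]
    exact mem_zpowers _
  obtain ⟨k, hk⟩ := mem_zpowers_iff.1 h2
  have h3 : u₁ ^ k = b := by simpa using congrArg Subtype.val hk
  have huk := H.cs_qelt hs hni hu1 hum
  have hle : cz u ≤ cz b := by
    rw [← h3]
    exact (cz_pow_le u _).trans (cz_le_zpow _ k)
  exact Subgroup.eq_of_le_of_card_ge hle (by
    rw [H.card_cz_k hbk, H.card_cz_k huk])

/-- Structure of the centralizer of an element with class size `nk`. -/
theorem exists_B : ∃ B : Subgroup G, ItoChar.IsCB B ∧ B.index = nk ∧ Nat.card B = ni := by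
  obtain ⟨b₁, hb₁, hb₁k⟩ := H.exk
  have hb₁o : orderOf b₁ ≠ 1 := fun h1 => hb₁ (orderOf_eq_one_iff.1 h1)
  obtain ⟨q, hq, hqd⟩ := Nat.exists_prime_and_dvd hb₁o
  have hbo := exists_pow_prime hqd
  set b := b₁ ^ (orderOf b₁ / q) with hb_def
  have hb1 : b ≠ 1 := by
    intro h
    rw [h, orderOf_one] at hbo
    exact hq.one_lt.ne hbo
  have hbk : cs b = nk := H.cs_pow_k hb₁k hb1
  obtain ⟨a₀, ha₀, ha₀i⟩ := H.exi
  have hni0 : ni ≠ 0 := by rw [← ha₀i]; exact index_ne_zero_of_finite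
  have main : ∀ {x : G}, cs x = nk → ItoChar.IsCB (cz x) →
      ∃ B : Subgroup G, ItoChar.IsCB B ∧ B.index = nk ∧ Nat.card B = ni := fun {x} hx hC =>
    ⟨cz x, hC, hx, H.card_cz_k hx⟩
  by_cases hex : ∃ r : ℕ, r.Prime ∧ r ≠ q ∧ r ∣ ni
  · obtain ⟨r, hr, hrq, hri⟩ := hex
    exact main hbk (H.isCB_of_two_primes hq hbo hbk hr hrq hri)
  · push Not at hex
    have h1 : ∀ {d : ℕ}, d.Prime → d ∣ ni → d = q := by
      intro d hd hdn
      by_contra hne
      exact hex d hd hne hdn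
    have hni := Nat.eq_prime_pow_of_unique_prime_dvd hni0 h1
    haveI : Fact q.Prime := ⟨hq⟩
    by_cases hT : pCore q G = ⊥
    · exact main hbk (H.isCB_of_pCore_bot hni hT hbo hbk)
    · obtain ⟨t, ht, ht1⟩ := (Subgroup.bot_or_exists_ne_one (pCore q G)).resolve_left hT
      obtain ⟨h2, h3⟩ := H.isCB_of_pCore hni ht ht1
      exact main h2 h3

end HN

end Cfsg.Agent.Lib.ItoGen
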