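import Mathlib
import Cfsg.Agent.Lib.N22Base

/-!
# Groups with two conjugacy class sizes (Ito)

If all conjugacy classes of a finite group have size `1` or `n` then at most one Sylow subgroup
is not central.
-/

set_option autoImplicit false
set_option linter.style.haveILetI false
set_option linter.unusedVariables false
set_option linter.unusedSectionVars false
open scoped Pointwise

namespace Cfsg.Agent.Lib.ItoTwo

open Subgroup

variable {G : Type*} [Group G]

/-- The centralizer of an element. -/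
abbrev cen (x : G) : Subgroup G := centralizer ({x} : Set G)

theorem mem_cen {x g : G} : g ∈ cen x ↔ g * x = x * g := mem_centralizer_singleton_iff

theorem mem_center_iff' {x : G} : x ∈ center G ↔ cen x = ⊤ := by
  constructor
  · intro h
    rw [eq_top_iff]
    intro g _
    rw [mem_cen]
    exact (mem_center_iff.1 h) g
  · intro h
    rw [mem_center_iff]
    intro g
    have : g ∈ cen x := by rw [h]; trivial
    exact mem_cen.1 this

theorem index_cen_eq_one_iff {x : G} : (cen x).index = 1 ↔ x ∈ center G := by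
  rw [index_eq_one, mem_center_iff']

theorem center_le_cen (x : G) : center G ≤ cen x := by
  intro z hz
  rw [mem_cen]
  exact ((mem_center_iff.1 hz) x).symm

theorem self_mem_cen (x : G) : x ∈ cen x := by rw [mem_cen]

/-- The centralizer of a conjugate. -/
theorem mem_cen_conj {x g h : G} : h ∈ cen (g * x * g⁻¹) ↔ g⁻¹ * h * g ∈ cen x := by
  rw [mem_cen, mem_cen]
  constructor
  · intro H
    have : g⁻¹ * (h * (g * x * g⁻¹)) * g = g⁻¹ * (g * x * g⁻¹ * h) * g := by rw [H]
    calc g⁻¹ * h * g * x = g⁻¹ * (h * (g * x * g⁻¹)) * g := by group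
      _ = g⁻¹ * (g * x * g⁻¹ * h) * g := this
      _ = x * (g⁻¹ * h * g) := by group
  · intro H
    calc h * (g * x * g⁻¹) = g * ((g⁻¹ * h * g) * x) * g⁻¹ := by group
      _ = g * (x * (g⁻¹ * h * g)) * g⁻¹ := by rw [H]
      _ = g * x * g⁻¹ * h := by group

theorem conj_mem_center {z g : G} (hz : z ∈ center G) : g * z * g⁻¹ ∈ center G := by
  have : g * z = z * g := (mem_center_iff.1 hz) g
  rw [this]
  simpa using hz

/-- Two commuting elements of coprime orders: each is a power of the product. -/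
theorem exists_pow_mul_eq_left {x y : G} (hxy : x * y = y * x)
    (hc : (orderOf x).Coprime (orderOf y)) (hx : 0 < orderOf x) (hy : 0 < orderOf y) :
    ∃ k : ℕ, (x * y) ^ k = x := by
  by_cases hx1 : orderOf x = 1
  · rw [orderOf_eq_one_iff] at hx1
    exact ⟨0, by simp [hx1]⟩
  have hlt : 1 < orderOf x := by omega
  obtain ⟨u, -, hu⟩ := Nat.exists_mul_mod_eq_one_of_coprime hc.symm hlt
  refine ⟨orderOf y * u, ?_⟩
  have hcomm : Commute x y := hxy
  rw [hcomm.mul_pow, pow_mul y, pow_orderOf_eq_one, one_pow, mul_one]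
  rw [← pow_mod_orderOf, hu, pow_one]

theorem cen_mul_eq_inf [Finite G] {x y : G} (hxy : x * y = y * x)
    (hc : (orderOf x).Coprime (orderOf y)) : cen (x * y) = cen x ⊓ cen y := by
  have hx0 : 0 < orderOf x := orderOf_pos x
  have hy0 : 0 < orderOf y := orderOf_pos y
  ext g
  rw [mem_inf]
  constructor
  · intro hg
    have hg' := mem_cen.1 hg
    have hcomm : Commute g (x * y) := hg'
    obtain ⟨k, hk⟩ := exists_pow_mul_eq_left hxy hc hx0 hy0
    obtain ⟨l, hl⟩ := exists_pow_mul_eq_left (x := y) (y := x) hxy.symm hc.symm hy0 hx0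
    constructor
    · rw [mem_cen, ← hk]
      exact (hcomm.pow_right k)
    · rw [mem_cen, ← hl, ← hxy]
      exact (hcomm.pow_right l)
  · rintro ⟨h1, h2⟩
    rw [mem_cen] at *
    calc g * (x * y) = (g * x) * y := by group
      _ = x * (g * y) := by rw [h1]; group
      _ = x * (y * g) := by rw [h2]
      _ = x * y * g := by group

/-- If `x * y` is central, for coprime commuting `x, y`, then `x` is central. -/
theorem mem_center_of_mul_mem_center [Finite G] {x y : G} (hxy : x * y = y * x)
    (hc : (orderOf x).Coprime (orderOf y)) (h : x * y ∈ center G) : x ∈ center G := by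
  obtain ⟨k, hk⟩ := exists_pow_mul_eq_left hxy hc (orderOf_pos x) (orderOf_pos y)
  rw [← hk]
  exact pow_mem h k

/-- The class size is the index of the centralizer. -/
theorem ncard_class [Finite G] (y : G) :
    {z : G | ∃ g : G, z = g * y * g⁻¹}.ncard = (cen y).index := by
  classical
  have h1 : (cen y).index = Nat.card (G ⧸ cen y) := rfl
  rw [h1, ← Nat.card_coe_set_eq]
  refine Nat.card_congr (Equiv.ofBijective ?_ ?_).symm
  · exact fun q => ⟨Quotient.liftOn' q (fun g => g * y * g⁻¹) (by
      intro a b hab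
      have hab' : a⁻¹ * b ∈ cen y := QuotientGroup.leftRel_apply.1 hab
      have := mem_cen.1 hab'
      show a * y * a⁻¹ = b * y * b⁻¹
      have h2 : b = a * (a⁻¹ * b) := by group
      calc a * y * a⁻¹ = a * (y * (a⁻¹ * b)) * (a⁻¹ * b)⁻¹ * a⁻¹ := by group
        _ = a * ((a⁻¹ * b) * y) * (a⁻¹ * b)⁻¹ * a⁻¹ := by rw [this]
        _ = b * y * b⁻¹ := by group), by
        induction q using Quotient.inductionOn' with
        | h g => exact ⟨g, rfl⟩⟩
  · constructor
    · intro p q hpq
      induction p using Quotient.inductionOn' with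
      | h a =>
        induction q using Quotient.inductionOn' with
        | h b =>
          have h3 : a * y * a⁻¹ = b * y * b⁻¹ := congrArg Subtype.val hpq
          apply Quotient.sound'
          apply QuotientGroup.leftRel_apply.2
          rw [mem_cen]
          calc a⁻¹ * b * y = a⁻¹ * (b * y * b⁻¹) * b := by group
            _ = a⁻¹ * (a * y * a⁻¹) * b := by rw [h3]
            _ = y * (a⁻¹ * b) := by group
    · rintro ⟨z, g, rfl⟩
      exact ⟨(g : G ⧸ cen y), rfl⟩

/-- The conjugation action of a subgroup: all orbit sizes divisible by `m` gives `m ∣ ncard`. -/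
theorem dvd_ncard_conj [Finite G] (H : Subgroup G) (m : ℕ) (V : Set G)
    (hV : ∀ h ∈ H, ∀ x ∈ V, h * x * h⁻¹ ∈ V) (hm : ∀ x ∈ V, m ∣ (cen x).relIndex H) :
    m ∣ V.ncard := by
  classical
  letI : MulAction H G := MulAction.compHom G ((MulAut.conj : G →* MulAut G).comp H.subtype)
  have hact : ∀ (h : H) (x : G), h • x = (h : G) * x * (h : G)⁻¹ := fun h x => rfl
  refine Cfsg.Agent.Lib.N22.dvd_ncard_of_invariant (G := H) m V ?_ ?_
  · intro g x hx
    rw [hact]
    exact hV g g.2 x hx
  · intro x hx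
    have h1 : (MulAction.stabilizer H x).index = (MulAction.orbit H x).ncard := by
      rw [MulAction.index_stabilizer]
    rw [← h1]
    have h2 : MulAction.stabilizer H x = (cen x).subgroupOf H := by
      ext h
      rw [MulAction.mem_stabilizer_iff, hact, mem_subgroupOf, mem_cen]
      constructor
      · intro H'
        calc (h : G) * x = (h : G) * x * (h : G)⁻¹ * h := by group
          _ = x * h := by rw [H']
      · intro H'
        rw [H']
        group
    rw [h2]
    exact hm x hx

/-- A finite group is not the union of the conjugates of a proper subgroup. -/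
theorem eq_top_of_forall_conj_mem' [Finite G] (M : Subgroup G)
    (h : ∀ n : G, ∃ m : G, m * n * m⁻¹ ∈ M) : M = ⊤ := by
  classical
  letI := Fintype.ofFinite G
  letI : Fintype M := Fintype.ofFinite _
  letI : Fintype (G ⧸ M) := Fintype.ofFinite _
  rw [← Subgroup.index_eq_one]
  let S : Finset G := Finset.univ.biUnion fun q : G ⧸ M =>
    (Finset.univ.erase (1 : M)).image fun a : M => Quotient.out q * (a : G) * (Quotient.out q)⁻¹
  have hcover : ∀ n : G, n ≠ 1 → n ∈ S := by
    intro n hn
    obtain ⟨m, hm⟩ := h n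
    have hq : (Quotient.out ((m⁻¹ : G) : G ⧸ M))⁻¹ * m⁻¹ ∈ M := by
      rw [← QuotientGroup.eq, QuotientGroup.out_eq']
    set r := Quotient.out ((m⁻¹ : G) : G ⧸ M) with hr
    set b := r⁻¹ * m⁻¹ with hb
    have hmr : m⁻¹ = r * b := by rw [hb]; group
    let a : M := ⟨b * (m * n * m⁻¹) * b⁻¹, M.mul_mem (M.mul_mem hq hm) (M.inv_mem hq)⟩
    rw [Finset.mem_biUnion]
    refine ⟨((m⁻¹ : G) : G ⧸ M), Finset.mem_univ _, ?_⟩
    rw [Finset.mem_image]
    refine ⟨a, ?_, ?_⟩
    · rw [Finset.mem_erase]
      refine ⟨?_, Finset.mem_univ _⟩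
      intro ha
      have h1 : b * (m * n * m⁻¹) * b⁻¹ = 1 := congrArg Subtype.val ha
      apply hn
      have h2 : m * n * m⁻¹ = 1 := by
        have := congrArg (fun y => b⁻¹ * y * b) h1
        simpa [mul_assoc] using this
      have := congrArg (fun y => m⁻¹ * y * m) h2
      simpa [mul_assoc] using this
    · show r * (b * (m * n * m⁻¹) * b⁻¹) * r⁻¹ = n
      have : m = (r * b)⁻¹ := by rw [← hmr, inv_inv]
      rw [this]
      group
  have hcard : Fintype.card G ≤ 1 + M.index * (Fintype.card M - 1) := by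
    have h1 : (Finset.univ : Finset G) ⊆ insert 1 S := by
      intro n _
      by_cases hn : n = 1
      · simp [hn]
      · exact Finset.mem_insert_of_mem (hcover n hn)
    calc Fintype.card G = (Finset.univ : Finset G).card := rfl
      _ ≤ (insert 1 S).card := Finset.card_le_card h1
      _ ≤ S.card + 1 := Finset.card_insert_le _ _
      _ ≤ M.index * (Fintype.card M - 1) + 1 := by
          gcongr
          refine Finset.card_biUnion_le.trans ?_
          refine (Finset.sum_le_sum fun q _ => Finset.card_image_le).trans ?_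
          simp only [Finset.card_erase_of_mem (Finset.mem_univ _), Finset.card_univ,
            Finset.sum_const, smul_eq_mul]
          rw [Subgroup.index_eq_card, Nat.card_eq_fintype_card]
      _ = _ := by ring
  have h3 : M.index * Fintype.card M = Fintype.card G := by
    rw [mul_comm, ← Nat.card_eq_fintype_card, ← Nat.card_eq_fintype_card, Subgroup.card_mul_index]
  have h4 : 0 < Fintype.card M := Fintype.card_pos
  have h5 : 0 < M.index := Nat.pos_of_ne_zero Subgroup.index_ne_zero_of_finite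
  have h6 : M.index * (Fintype.card M - 1) + M.index = Fintype.card G := by
    rw [← h3]
    obtain ⟨k, hk⟩ : ∃ k, Fintype.card M = k + 1 := ⟨Fintype.card M - 1, by omega⟩
    rw [hk]
    simp only [Nat.add_sub_cancel]
    ring
  omega

/-- A subgroup of index prime to `t` contains a conjugate of each Sylow `t`-subgroup. -/
theorem exists_conj_le_of_not_dvd_index [Finite G] {t : ℕ} [Fact t.Prime] (P : Sylow t G)
    (H : Subgroup G) (hH : ¬ t ∣ H.index) : ∃ g : G, ∀ y ∈ (P : Subgroup G), g⁻¹ * y * g ∈ H := by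
  classical
  have hP : IsPGroup t (P : Subgroup G) := P.isPGroup'
  have hcard : ¬ t ∣ Nat.card (G ⧸ H) := hH
  obtain ⟨q, hq⟩ := hP.nonempty_fixed_point_of_prime_not_dvd_card (G ⧸ H) hcard
  induction q using QuotientGroup.induction_on with
  | H g =>
    refine ⟨g, fun y hy => ?_⟩
    have h1 := MulAction.mem_fixedPoints.1 hq ⟨y, hy⟩
    have h2 : ((y * g : G) : G ⧸ H) = (g : G ⧸ H) := h1
    have h3 := QuotientGroup.eq.1 h2
    have h4 : (y * g)⁻¹ * g ∈ H := h3
    have h5 : g⁻¹ * y * g = ((y * g)⁻¹ * g)⁻¹ := by group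
    rw [h5]
    exact H.inv_mem h4

/-- Elements with a power of `t` equal to `1`. -/
def IsPrimary (t : ℕ) (x : G) : Prop := ∃ k : ℕ, x ^ (t ^ k) = 1

theorem coprime_orderOf_of_isPrimary [Finite G] {t s : ℕ} (ht : t.Prime) (hs : s.Prime) (hts : t ≠ s)
    {x y : G} (hx : IsPrimary t x) (hy : IsPrimary s y) : (orderOf x).Coprime (orderOf y) := by
  obtain ⟨k, hk⟩ := hx
  obtain ⟨l, hl⟩ := hy
  have h1 : orderOf x ∣ t ^ k := orderOf_dvd_of_pow_eq_one hk
  have h2 : orderOf y ∣ s ^ l := orderOf_dvd_of_pow_eq_one hl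
  have h3 : (t ^ k).Coprime (s ^ l) := Nat.Coprime.pow _ _ ((Nat.coprime_primes ht hs).2 hts)
  exact Nat.Coprime.coprime_dvd_left h1 (Nat.Coprime.coprime_dvd_right h2 h3)

/-- Splitting an element along coprime exponents. -/
theorem exists_split {a b : ℕ} (x : G) (hab : a.Coprime b) (hx : x ^ (a * b) = 1) :
    ∃ u v : G, x = u * v ∧ u * v = v * u ∧ u ^ a = 1 ∧ v ^ b = 1 ∧ u ∈ zpowers x ∧ v ∈ zpowers x := by
  have hg : ((a : ℤ) * Nat.gcdA a b + (b : ℤ) * Nat.gcdB a b) = 1 := by
    have := Nat.gcd_eq_gcd_ab a b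
    rw [hab.gcd_eq_one] at this
    push_cast at this
    omega
  refine ⟨x ^ ((b : ℤ) * Nat.gcdB a b), x ^ ((a : ℤ) * Nat.gcdA a b), ?_, ?_, ?_, ?_, ?_, ?_⟩
  · rw [← zpow_add]
    have : (b : ℤ) * Nat.gcdB a b + (a : ℤ) * Nat.gcdA a b = 1 := by omega
    rw [this, zpow_one]
  · rw [← zpow_add, ← zpow_add, add_comm]
  · rw [← zpow_natCast, ← zpow_mul]
    have : (b : ℤ) * Nat.gcdB a b * a = (a * b : ℕ) * Nat.gcdB a b := by push_cast; ring
    rw [this, zpow_mul, zpow_natCast, hx, one_zpow]
  · rw [← zpow_natCast, ← zpow_mul]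
    have : (a : ℤ) * Nat.gcdA a b * b = (a * b : ℕ) * Nat.gcdA a b := by push_cast; ring
    rw [this, zpow_mul, zpow_natCast, hx, one_zpow]
  · exact zpow_mem (mem_zpowers x) _
  · exact zpow_mem (mem_zpowers x) _

/-- Every element splits into a `t`-part and a `t'`-part. -/
theorem exists_primary_split [Finite G] {t : ℕ} (ht : t.Prime) (x : G) :
    ∃ u v : G, x = u * v ∧ u * v = v * u ∧ IsPrimary t u ∧ (orderOf v).Coprime t ∧
      u ∈ zpowers x ∧ v ∈ zpowers x := by
  have h0 : orderOf x ≠ 0 := (orderOf_pos x).ne'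
  obtain ⟨e, m, hm, he⟩ := Nat.exists_eq_pow_mul_and_not_dvd h0 t ht.ne_one
  have hc : (t ^ e).Coprime m := Nat.Coprime.pow_left _ ((Nat.Prime.coprime_iff_not_dvd ht).2 hm)
  obtain ⟨u, v, h1, h2, h3, h4, h5, h6⟩ := exists_split x hc (by rw [← he, pow_orderOf_eq_one])
  refine ⟨u, v, h1, h2, ⟨e, h3⟩, ?_, h5, h6⟩
  have h7 : orderOf v ∣ m := orderOf_dvd_of_pow_eq_one h4
  exact Nat.Coprime.coprime_dvd_left h7 ((Nat.Prime.coprime_iff_not_dvd ht).2 hm).symm

/-- `t ∣ [T : Z]` gives a noncentral `t`-element. -/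
theorem exists_primary_of_dvd_relIndex [Finite G] {t : ℕ} (ht : t.Prime) (Z T : Subgroup G)
    [Fact t.Prime] (hnorm : (Z.subgroupOf T).Normal) (hd : t ∣ Z.relIndex T) :
    ∃ u ∈ T, u ∉ Z ∧ IsPrimary t u := by
  have hd' : t ∣ Nat.card (T ⧸ Z.subgroupOf T) := hd
  obtain ⟨q, hq⟩ := exists_prime_orderOf_dvd_card' t hd'
  induction q using QuotientGroup.induction_on with
  | H w =>
    obtain ⟨u, v, h1, h2, h3, h4, h5, h6⟩ := exists_primary_split ht w
    have hw : ((w : T ⧸ Z.subgroupOf T)) ^ t = 1 := by rw [← hq]; exact pow_orderOf_eq_one _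
    have hne : ((w : T ⧸ Z.subgroupOf T)) ≠ 1 := by
      intro h
      rw [h, orderOf_one] at hq
      exact ht.one_lt.ne hq
    -- if `u ∈ Z` then the image of `w` has order dividing both `t` and the order of `v`
    refine ⟨u, u.2, ?_, ?_⟩
    · intro hu
      apply hne
      have hu' : (u : T) ∈ Z.subgroupOf T := hu
      have hu1 : ((u : T) : T ⧸ Z.subgroupOf T) = 1 := (QuotientGroup.eq_one_iff _).2 hu'
      have h7 : ((w : T) : T ⧸ Z.subgroupOf T) = ((v : T) : T ⧸ Z.subgroupOf T) := by
        rw [h1, QuotientGroup.mk_mul, hu1, one_mul]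
      have h8 : orderOf ((v : T) : T ⧸ Z.subgroupOf T) ∣ orderOf v := by
        apply orderOf_dvd_of_pow_eq_one
        rw [← QuotientGroup.mk_pow, pow_orderOf_eq_one, QuotientGroup.mk_one]
      have h9 : orderOf ((w : T) : T ⧸ Z.subgroupOf T) ∣ t := orderOf_dvd_of_pow_eq_one hw
      rw [h7] at h9
      have h10 : Nat.Coprime (orderOf ((v : T) : T ⧸ Z.subgroupOf T)) t :=
        Nat.Coprime.coprime_dvd_left h8 h4
      have h11 : orderOf ((v : T) : T ⧸ Z.subgroupOf T) = 1 := Nat.eq_one_of_dvd_coprimes h10 dvd_rfl h9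
      rw [h7, ← orderOf_eq_one_iff]
      exact h11
    · obtain ⟨k, hk⟩ := h3
      exact ⟨k, by exact_mod_cast congrArg Subtype.val hk⟩

/-- `ordProj` of the index divides the relative index on a Sylow subgroup. -/
theorem ordProj_index_dvd_relIndex [Finite G] {r : ℕ} [hr : Fact r.Prime] (R : Sylow r G)
    (T : Subgroup G) : r ^ (T.index.factorization r) ∣ T.relIndex (R : Subgroup G) := by
  classical
  have hT0 : T.index ≠ 0 := index_ne_zero_of_finite
  have hTc : Nat.card T ≠ 0 := Nat.card_pos.ne'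
  have h1 : Nat.card R = r ^ (Nat.card G).factorization r := R.card_eq_multiplicity
  have h2 : Nat.card T * T.index = Nat.card G := card_mul_index T
  have h3 : (Nat.card G).factorization r = (Nat.card T).factorization r + T.index.factorization r := by
    rw [← h2, Nat.factorization_mul hTc hT0]
    rfl
  have h4 : Nat.card (T.subgroupOf (R : Subgroup G)) * T.relIndex (R : Subgroup G) = Nat.card R :=
    card_mul_index _
  -- the intersection is an `r`-group inside `T`
  have h5 : IsPGroup r (T.subgroupOf (R : Subgroup G)) := (R.isPGroup').to_subgroup _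
  obtain ⟨k, hk⟩ := IsPGroup.iff_card.1 h5
  let f : T.subgroupOf (R : Subgroup G) →* T :=
    { toFun := fun x => ⟨x.1.1, x.2⟩
      map_one' := rfl
      map_mul' := fun _ _ => rfl }
  have hf : Function.Injective f := by
    intro x y hxy
    apply Subtype.ext
    apply Subtype.ext
    exact congrArg (fun z : T => (z : G)) hxy
  have h6 : Nat.card (T.subgroupOf (R : Subgroup G)) ∣ Nat.card T := Subgroup.card_dvd_of_injective f hf
  rw [hk] at h6
  have h7 : k ≤ (Nat.card T).factorization r := (hr.out.pow_dvd_iff_le_factorization hTc).1 h6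
  rw [hk, h1, h3] at h4
  have h8 : r ^ k * T.relIndex (R : Subgroup G)
      = r ^ k * (r ^ ((Nat.card T).factorization r - k) * r ^ (T.index.factorization r)) := by
    rw [h4, ← pow_add, ← pow_add]
    congr 1
    omega
  have h9 := Nat.eq_of_mul_eq_mul_left (pow_pos hr.out.pos k) h8
  rw [h9]
  exact dvd_mul_left _ _

theorem normal_center_subgroupOf (T : Subgroup G) : ((center G).subgroupOf T).Normal :=
  Subgroup.normal_subgroupOf

/-- A noncentral `s`-element `b` gives `s ∣ [C(b) : Z]`. -/
theorem dvd_relIndex_of_primary [Finite G] {s : ℕ} (hs : s.Prime) {b : G} (hb : b ∉ center G)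
    (hp : IsPrimary s b) : s ∣ (center G).relIndex (cen b) := by
  classical
  haveI := normal_center_subgroupOf (G := G) (cen b)
  let w : cen b := ⟨b, self_mem_cen b⟩
  let q : cen b ⧸ (center G).subgroupOf (cen b) := (w : cen b ⧸ (center G).subgroupOf (cen b))
  have hq : q ≠ 1 := by
    intro h
    have h1 : w ∈ (center G).subgroupOf (cen b) := (QuotientGroup.eq_one_iff _).1 h
    exact hb h1
  obtain ⟨k, hk⟩ := hp
  have h2 : q ^ (s ^ k) = 1 := by
    have : w ^ (s ^ k) = 1 := Subtype.ext hk
    show (w : cen b ⧸ (center G).subgroupOf (cen b)) ^ (s ^ k) = 1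
    rw [← QuotientGroup.mk_pow, this, QuotientGroup.mk_one]
  have h3 : orderOf q ∣ s ^ k := orderOf_dvd_of_pow_eq_one h2
  obtain ⟨j, hj, hj'⟩ := (Nat.dvd_prime_pow hs).1 h3
  have h4 : j ≠ 0 := by
    rintro rfl
    rw [pow_zero, orderOf_eq_one_iff] at hj'
    exact hq hj'
  have h5 : s ∣ orderOf q := by
    rw [hj']
    exact dvd_pow_self s h4
  exact h5.trans (orderOf_dvd_natCard q)

theorem mem_smul_sylow_iff {t : ℕ} [Fact t.Prime] (k : G) (P : Sylow t G) (x : G) :
    x ∈ ((k • P : Sylow t G) : Subgroup G) ↔ k⁻¹ * x * k ∈ (P : Subgroup G) := by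
  rw [Sylow.coe_subgroup_smul, Cfsg.Agent.Lib.PCore.mem_conj_smul_iff]

section TwoSizes

variable [Finite G] {n : ℕ}

theorem index_of_not_center (h : ∀ x : G, (cen x).index = 1 ∨ (cen x).index = n) {x : G}
    (hx : x ∉ center G) : (cen x).index = n := by
  rcases h x with h1 | h1
  · exact absurd (index_cen_eq_one_iff.1 h1) hx
  · exact h1

theorem card_cen_eq (h : ∀ x : G, (cen x).index = 1 ∨ (cen x).index = n) {x y : G}
    (hx : x ∉ center G) (hy : y ∉ center G) : Nat.card (cen x) = Nat.card (cen y) := by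
  have h1 := card_mul_index (cen x)
  have h2 := card_mul_index (cen y)
  rw [index_of_not_center h hx] at h1
  rw [index_of_not_center h hy] at h2
  have hn0 : n ≠ 0 := by
    rw [← index_of_not_center h hx]
    exact index_ne_zero_of_finite
  exact Nat.eq_of_mul_eq_mul_right (Nat.pos_of_ne_zero hn0) (h1.trans h2.symm)

theorem relIndex_cen_eq (h : ∀ x : G, (cen x).index = 1 ∨ (cen x).index = n) {x y : G}
    (hx : x ∉ center G) (hy : y ∉ center G) :
    (center G).relIndex (cen x) = (center G).relIndex (cen y) := by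
  have h1 := relIndex_mul_index (center_le_cen x)
  have h2 := relIndex_mul_index (center_le_cen y)
  rw [index_of_not_center h hx] at h1
  rw [index_of_not_center h hy] at h2
  have hn0 : n ≠ 0 := by
    rw [← index_of_not_center h hx]
    exact index_ne_zero_of_finite
  exact Nat.eq_of_mul_eq_mul_right (Nat.pos_of_ne_zero hn0) (h1.trans h2.symm)

theorem cen_eq_of_commute (h : ∀ x : G, (cen x).index = 1 ∨ (cen x).index = n) {x y : G}
    (hx : x ∉ center G) (hy : y ∉ center G) (hxy : x * y = y * x)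
    (hc : (orderOf x).Coprime (orderOf y)) : cen x = cen y := by
  have hm : x * y ∉ center G := fun hm => hx (mem_center_of_mul_mem_center hxy hc hm)
  have h1 : cen (x * y) = cen x ⊓ cen y := cen_mul_eq_inf hxy hc
  have h2 : cen (x * y) = cen x := by
    apply Subgroup.eq_of_le_of_card_ge
    · rw [h1]; exact inf_le_left
    · rw [card_cen_eq h hm hx]
  have h3 : cen (x * y) = cen y := by
    apply Subgroup.eq_of_le_of_card_ge
    · rw [h1]; exact inf_le_right
    · rw [card_cen_eq h hm hy]
  rw [← h2, h3]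

/-- A noncentral Sylow subgroup: the prime divides `n`, and there is an element in the second
centre. -/
theorem anchor (h : ∀ x : G, (cen x).index = 1 ∨ (cen x).index = n) {t : ℕ} [ht : Fact t.Prime]
    (P : Sylow t G) (hP : ¬ (P : Subgroup G) ≤ center G) :
    t ∣ n ∧ ∃ a ∈ (P : Subgroup G), a ∉ center G ∧ ∀ g ∈ (P : Subgroup G), g * a * g⁻¹ * a⁻¹ ∈ center G := by
  classical
  have hnot : ∀ (H : Subgroup G), (P : Subgroup G) ≤ H → ¬ t ∣ H.index := by
    intro H hH hd
    exact P.not_dvd_index (hd.trans (index_dvd_of_le hH))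
  have hdvd : t ∣ n := by
    by_contra hd
    apply hP
    have hM := eq_top_of_forall_conj_mem' (centralizer ((P : Subgroup G) : Set G)) (by
      intro x
      have hx : ¬ t ∣ (cen x).index := by
        rcases h x with h1 | h1
        · rw [h1]; simpa using ht.out.one_lt.ne'
        · rwa [h1]
      obtain ⟨g, hg⟩ := exists_conj_le_of_not_dvd_index P (cen x) hx
      refine ⟨g, ?_⟩
      rw [mem_centralizer_iff]
      intro y hy
      have h1 : g⁻¹ * y * g * x = x * (g⁻¹ * y * g) := mem_cen.1 (hg y hy)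
      calc y * (g * x * g⁻¹) = g * (g⁻¹ * y * g * x) * g⁻¹ := by group
        _ = g * (x * (g⁻¹ * y * g)) * g⁻¹ := by rw [h1]
        _ = g * x * g⁻¹ * y := by group)
    intro y hy
    rw [mem_center_iff]
    intro g
    have : g ∈ centralizer ((P : Subgroup G) : Set G) := by rw [hM]; trivial
    exact ((mem_centralizer_iff.1 this) y hy).symm
  have hZP : ∀ z ∈ (P : Subgroup G), (∀ y ∈ (P : Subgroup G), y * z = z * y) → z ∈ center G := by
    intro z _ hz
    have h1 : (P : Subgroup G) ≤ cen z := fun y hy => mem_cen.2 (hz y hy)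
    have h2 := hnot _ h1
    rcases h z with h3 | h3
    · exact index_cen_eq_one_iff.1 h3
    · rw [h3] at h2
      exact absurd hdvd h2
  refine ⟨hdvd, ?_⟩
  let A : Subgroup G := (P : Subgroup G)
  have hpA : IsPGroup t A := P.isPGroup'
  haveI hnt : Nontrivial (A ⧸ center A) := by
    by_contra hns
    rw [not_nontrivial_iff_subsingleton] at hns
    apply hP
    intro x hx
    have h1 : ((⟨x, hx⟩ : A) : A ⧸ center A) = 1 := Subsingleton.elim _ _
    have h2 : (⟨x, hx⟩ : A) ∈ center A := (QuotientGroup.eq_one_iff _).1 h1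
    apply hZP x hx
    intro y hy
    have h3 := (mem_center_iff.1 h2) ⟨y, hy⟩
    exact congrArg Subtype.val h3
  haveI hcq := (hpA.to_quotient (center A)).center_nontrivial
  obtain ⟨⟨c, hc⟩, hc1⟩ := exists_ne (1 : center (A ⧸ center A))
  induction c using QuotientGroup.induction_on with
  | H a₀ =>
    refine ⟨a₀, a₀.2, ?_, ?_⟩
    · intro ha
      apply hc1
      apply Subtype.ext
      have : a₀ ∈ center A := by
        rw [mem_center_iff]
        intro g
        apply Subtype.ext
        exact ((mem_center_iff.1 ha) (g : G))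
      exact (QuotientGroup.eq_one_iff _).2 this
    · intro g hg
      let g₀ : A := ⟨g, hg⟩
      have h1 := (mem_center_iff.1 hc) (g₀ : A ⧸ center A)
      have h2 : g₀ * a₀ * g₀⁻¹ * a₀⁻¹ ∈ center A := by
        rw [← QuotientGroup.eq_one_iff]
        simp only [QuotientGroup.mk_mul, QuotientGroup.mk_inv]
        rw [h1]
        group
      have h3 : ((g₀ * a₀ * g₀⁻¹ * a₀⁻¹ : A) : G) ∈ center G := by
        apply hZP _ (SetLike.coe_mem _)
        intro y hy
        exact congrArg Subtype.val ((mem_center_iff.1 h2) ⟨y, hy⟩)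
      exact h3

/-- Conjugation by an element `g` with `[g, a]` central normalizes `C(a)`. -/
theorem conj_mem_cen_of_comm_central {a g u : G} (hg : g * a * g⁻¹ * a⁻¹ ∈ center G)
    (hu : u ∈ cen a) : g * u * g⁻¹ ∈ cen a := by
  rw [mem_cen] at *
  set z := g * a * g⁻¹ * a⁻¹ with hz
  have h1 : g * a * g⁻¹ = z * a := by rw [hz]; group
  have h2 : g * u * g⁻¹ * (g * a * g⁻¹) = g * a * g⁻¹ * (g * u * g⁻¹) := by
    calc g * u * g⁻¹ * (g * a * g⁻¹) = g * (u * a) * g⁻¹ := by group
      _ = g * (a * u) * g⁻¹ := by rw [hu]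
      _ = _ := by group
  rw [h1] at h2
  have h3 : (g * u * g⁻¹) * z = z * (g * u * g⁻¹) := (mem_center_iff.1 hg) _
  have h4 : z * ((g * u * g⁻¹) * a) = z * (a * (g * u * g⁻¹)) := by
    calc z * ((g * u * g⁻¹) * a) = (z * (g * u * g⁻¹)) * a := by group
      _ = ((g * u * g⁻¹) * z) * a := by rw [h3]
      _ = (g * u * g⁻¹) * (z * a) := by group
      _ = z * a * (g * u * g⁻¹) := h2
      _ = _ := by group
  exact mul_left_cancel h4

/-- Centralizers of primary elements are abelian, when there is a noncentral element for another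
prime, and every noncentral element of such a centralizer has the same centralizer. -/
theorem cen_comm (h : ∀ x : G, (cen x).index = 1 ∨ (cen x).index = n) {r s : ℕ} (hr : r.Prime)
    (hs : s.Prime) (hrs : r ≠ s) {a b : G} (ha : a ∉ center G) (hb : b ∉ center G)
    (hpa : IsPrimary r a) (hpb : IsPrimary s b) :
    (∀ v ∈ cen a, ∀ w ∈ cen a, v * w = w * v) ∧ ∀ u ∈ cen a, u ∉ center G → cen u = cen a := by
  classical
  haveI : Fact s.Prime := ⟨hs⟩
  have h1 : s ∣ (center G).relIndex (cen a) := by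
    rw [relIndex_cen_eq h ha hb]
    exact dvd_relIndex_of_primary hs hb hpb
  haveI := normal_center_subgroupOf (G := G) (cen a)
  obtain ⟨u, hu, huz, hpu⟩ := exists_primary_of_dvd_relIndex hs (center G) (cen a) inferInstance h1
  have hcu : cen u = cen a := cen_eq_of_commute h huz ha (mem_cen.1 hu)
    (coprime_orderOf_of_isPrimary hs hr hrs.symm hpu hpa)
  have hcomm : ∀ v ∈ cen a, ∀ w ∈ cen a, v * w = w * v := by
    intro v hv w hw
    obtain ⟨v₁, v₂, h12, hc12, hp1, hc2, hm1, hm2⟩ := exists_primary_split hr v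
    have hv₁ : v₁ ∈ cen a := (zpowers_le.2 hv) hm1
    have hv₂ : v₂ ∈ cen a := (zpowers_le.2 hv) hm2
    have hk2 : w * v₂ = v₂ * w := by
      by_cases hz : v₂ ∈ center G
      · exact ((mem_center_iff.1 hz) w)
      · have hcop : (orderOf v₂).Coprime (orderOf a) := by
          obtain ⟨k, hk⟩ := hpa
          exact Nat.Coprime.coprime_dvd_right (orderOf_dvd_of_pow_eq_one hk) (Nat.Coprime.pow_right _ hc2)
        have h3 := cen_eq_of_commute h hz ha (mem_cen.1 hv₂) hcop
        rw [← h3] at hw
        exact mem_cen.1 hw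
    have hk1 : w * v₁ = v₁ * w := by
      by_cases hz : v₁ ∈ center G
      · exact ((mem_center_iff.1 hz) w)
      · have hv₁' : v₁ ∈ cen u := by rw [hcu]; exact hv₁
        have h3 := cen_eq_of_commute h hz huz (mem_cen.1 hv₁')
          (coprime_orderOf_of_isPrimary hr hs hrs hp1 hpu)
        rw [hcu] at h3
        rw [← h3] at hw
        exact mem_cen.1 hw
    rw [h12]
    calc v₁ * v₂ * w = v₁ * (v₂ * w) := by group
      _ = v₁ * (w * v₂) := by rw [hk2]
      _ = (v₁ * w) * v₂ := by group
      _ = (w * v₁) * v₂ := by rw [hk1]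
      _ = _ := by group
  refine ⟨hcomm, ?_⟩
  intro u' hu' hu'z
  symm
  apply Subgroup.eq_of_le_of_card_ge
  · intro w hw
    rw [mem_cen]
    exact hcomm w hw u' hu'
  · rw [card_cen_eq h hu'z ha]

/-- Not all elements of the Sylow subgroup can be conjugated into the centralizer of the anchor. -/
theorem exists_not_conj_mem (h : ∀ x : G, (cen x).index = 1 ∨ (cen x).index = n) {r s : ℕ}
    [hr : Fact r.Prime] [hs : Fact s.Prime] (hrs : r ≠ s) (R : Sylow r G)
    (hR : ¬ (R : Subgroup G) ≤ center G) {a b : G} (haR : a ∈ (R : Subgroup G)) (haz : a ∉ center G)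
    (hag : ∀ g ∈ (R : Subgroup G), g * a * g⁻¹ * a⁻¹ ∈ center G) (hbz : b ∉ center G)
    (hpa : IsPrimary r a) (hpb : IsPrimary s b) :
    ∃ y ∈ (R : Subgroup G), ∀ k : G, k * y * k⁻¹ ∉ cen a := by
  classical
  by_contra hcon
  push_neg at hcon
  have hT := cen_comm h hr.out hs.out hrs haz hbz hpa hpb
  -- every Sylow subgroup has a conjugate normalizing `T`
  have key : ∀ (t : ℕ) [ht : Fact t.Prime] (P : Sylow t G), ∃ k : G, ∀ g ∈ (P : Subgroup G), ∀ u ∈ cen a,
      (k * g * k⁻¹) * u * (k * g * k⁻¹)⁻¹ ∈ cen a := by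
    intro t ht P
    by_cases hP : (P : Subgroup G) ≤ center G
    · refine ⟨1, fun g hg u hu => ?_⟩
      have hg' := (mem_center_iff.1 (hP hg))
      have : (1 * g * 1⁻¹) * u * (1 * g * 1⁻¹)⁻¹ = u := by
        simp only [inv_one, mul_one, one_mul]
        rw [(hg' u).symm]
        group
      rw [this]
      exact hu
    · obtain ⟨-, c, hcP, hcz, hcg⟩ := anchor h P hP
      have hpc : IsPrimary t c := by
        obtain ⟨k, hk⟩ := IsPGroup.iff_orderOf.1 P.isPGroup' ⟨c, hcP⟩
        refine ⟨k, ?_⟩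
        have := pow_orderOf_eq_one (⟨c, hcP⟩ : (P : Subgroup G))
        rw [hk] at this
        exact congrArg Subtype.val this
      -- the centralizer of `c` is abelian
      have hTc : (∀ v ∈ cen c, ∀ w ∈ cen c, v * w = w * v) ∧ ∀ u ∈ cen c, u ∉ center G → cen u = cen c := by
        by_cases htr : t = r
        · subst htr
          exact cen_comm h hr.out hs.out hrs hcz hbz hpc hpb
        · exact cen_comm h ht.out hr.out htr hcz haz hpc hpa
      -- an `r`-element in `C(c)`
      have hd : r ∣ (center G).relIndex (cen c) := by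
        rw [relIndex_cen_eq h hcz haz]
        exact dvd_relIndex_of_primary hr.out haz hpa
      haveI := normal_center_subgroupOf (G := G) (cen c)
      obtain ⟨u, huc, huz, hpu⟩ := exists_primary_of_dvd_relIndex hr.out (center G) (cen c) inferInstance hd
      -- conjugate `u` into `R`
      have hzp : IsPGroup r (zpowers u) := by
        obtain ⟨k, hk⟩ := hpu
        rw [IsPGroup.iff_orderOf]
        rintro ⟨x, hx⟩
        obtain ⟨i, rfl⟩ := mem_zpowers_iff.1 hx
        have h1 : ((u ^ i) ^ (r ^ k)) = 1 := by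
          rw [← zpow_natCast, ← zpow_mul, mul_comm, zpow_mul, zpow_natCast, hk, one_zpow]
        have h2 : orderOf (⟨u ^ i, hx⟩ : zpowers u) ∣ r ^ k := by
          apply orderOf_dvd_of_pow_eq_one
          exact Subtype.ext h1
        obtain ⟨j, -, hj⟩ := (Nat.dvd_prime_pow hr.out).1 h2
        exact ⟨j, hj⟩
      obtain ⟨Q, hQ⟩ := hzp.exists_le_sylow
      obtain ⟨g₀, hg₀⟩ := MulAction.exists_smul_eq G Q R
      have hu1 : g₀ * u * g₀⁻¹ ∈ (R : Subgroup G) := by
        rw [← hg₀]
        rw [mem_smul_sylow_iff]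
        have h3 : g₀⁻¹ * (g₀ * u * g₀⁻¹) * g₀ = u := by group
        rw [h3]
        exact hQ (mem_zpowers u)
      obtain ⟨k₁, hk₁⟩ := hcon _ hu1
      set k := k₁ * g₀ with hk
      have hu2 : k * u * k⁻¹ ∈ cen a := by
        have : k * u * k⁻¹ = k₁ * (g₀ * u * g₀⁻¹) * k₁⁻¹ := by rw [hk]; group
        rw [this]
        exact hk₁
      have hu2z : k * u * k⁻¹ ∉ center G := by
        intro hz
        apply huz
        have := conj_mem_center (g := k⁻¹) hz
        have h3 : k⁻¹ * (k * u * k⁻¹) * k⁻¹⁻¹ = u := by group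
        rwa [h3] at this
      have hcu : cen (k * u * k⁻¹) = cen a := hT.2 _ hu2 hu2z
      have hcu' : cen u = cen c := hTc.2 u huc huz
      refine ⟨k, fun g hg w hw => ?_⟩
      rw [← hcu] at hw ⊢
      rw [mem_cen_conj] at hw ⊢
      rw [hcu'] at hw ⊢
      have h4 := conj_mem_cen_of_comm_central (hcg g hg) hw
      have h5 : k⁻¹ * (k * g * k⁻¹ * w * (k * g * k⁻¹)⁻¹) * k = g * (k⁻¹ * w * k) * g⁻¹ := by group
      rw [h5]
      exact h4
  -- so `T` is normal
  have hnorm : (normalizer ((cen a : Subgroup G) : Set G)).index = 1 := by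
    by_contra hne
    have hp := Nat.minFac_prime hne
    haveI : Fact (Nat.minFac (normalizer ((cen a : Subgroup G) : Set G)).index).Prime := ⟨hp⟩
    let P : Sylow (Nat.minFac (normalizer ((cen a : Subgroup G) : Set G)).index) G := default
    obtain ⟨k, hk⟩ := key _ P
    have hle : ((k • P : Sylow _ G) : Subgroup G) ≤ normalizer ((cen a : Subgroup G) : Set G) := by
      intro x hx
      rw [mem_smul_sylow_iff] at hx
      rw [mem_normalizer_iff]
      intro u
      have hxe : x = k * (k⁻¹ * x * k) * k⁻¹ := by group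
      constructor
      · intro hu
        have := hk _ hx u hu
        rwa [← hxe] at this
      · intro hu
        have h1 := hk _ (inv_mem hx) _ hu
        have h2 : k * (k⁻¹ * x * k)⁻¹ * k⁻¹ * (x * u * x⁻¹) * (k * (k⁻¹ * x * k)⁻¹ * k⁻¹)⁻¹ = u := by group
        rwa [h2] at h1
    exact (k • P).not_dvd_index ((Nat.minFac_dvd _).trans (index_dvd_of_le hle))
  have hnormal : (cen a).Normal := by
    rw [index_eq_one] at hnorm
    exact normalizer_eq_top_iff.1 hnorm
  obtain ⟨hrn, -⟩ := anchor h R hR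
  have hRT : ¬ (R : Subgroup G) ≤ cen a := by
    intro hle
    have : r ∣ (cen a).index := by
      rw [index_of_not_center h haz]
      exact hrn
    exact R.not_dvd_index (this.trans (index_dvd_of_le hle))
  obtain ⟨y, hyR, hyT⟩ := SetLike.not_le_iff_exists.1 hRT
  obtain ⟨k, hk⟩ := hcon y hyR
  apply hyT
  have := hnormal.conj_mem _ hk k⁻¹
  have h3 : k⁻¹ * (k * y * k⁻¹) * k⁻¹⁻¹ = y := by group
  rwa [h3] at this

/-- The order of `C(x)/Z` divides `n`. -/
theorem relIndex_dvd (h : ∀ x : G, (cen x).index = 1 ∨ (cen x).index = n) {r s : ℕ}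
    [hr : Fact r.Prime] [hs : Fact s.Prime] (hrs : r ≠ s) (R : Sylow r G)
    (hR : ¬ (R : Subgroup G) ≤ center G) {a b : G} (haR : a ∈ (R : Subgroup G)) (haz : a ∉ center G)
    (hag : ∀ g ∈ (R : Subgroup G), g * a * g⁻¹ * a⁻¹ ∈ center G) (hbz : b ∉ center G)
    (hpa : IsPrimary r a) (hpb : IsPrimary s b) :
    (center G).relIndex (cen a) ∣ n := by
  classical
  obtain ⟨y, hyR, hy⟩ := exists_not_conj_mem h hrs R hR haR haz hag hbz hpa hpb
  have hT := cen_comm h hr.out hs.out hrs haz hbz hpa hpb
  have hyz : y ∉ center G := by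
    intro hz
    apply hy 1
    have : (1 : G) * y * 1⁻¹ = y := by group
    rw [this]
    exact center_le_cen a hz
  rw [← index_of_not_center h hyz, ← ncard_class]
  apply dvd_ncard_conj (cen a)
  · rintro g - _ ⟨k, rfl⟩
    exact ⟨g * k, by group⟩
  · rintro _ ⟨k, rfl⟩
    have hx := hy k
    have hinf : cen (k * y * k⁻¹) ⊓ cen a = center G := by
      apply le_antisymm
      · rintro u ⟨hu1, hu2⟩
        by_contra huz
        apply hx
        rw [← hT.2 u hu2 huz, mem_cen]
        exact (mem_cen.1 hu1).symm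
      · exact le_inf (center_le_cen _) (center_le_cen _)
    rw [← inf_relIndex_right (cen (k * y * k⁻¹)) (cen a), hinf]

/-- The main inequality. -/
theorem ordProj_lt (h : ∀ x : G, (cen x).index = 1 ∨ (cen x).index = n) (hn : 1 < n) {r s : ℕ}
    [hr : Fact r.Prime] [hs : Fact s.Prime] (hrs : r ≠ s) (R : Sylow r G) (S : Sylow s G)
    (hR : ¬ (R : Subgroup G) ≤ center G) (hS : ¬ (S : Subgroup G) ≤ center G) :
    r ^ (n.factorization r) < s ^ (n.factorization s) := by
  classical
  have hprim : ∀ {t : ℕ} [Fact t.Prime] (P : Sylow t G), ∀ c ∈ (P : Subgroup G), IsPrimary t c := by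
    intro t _ P c hc
    obtain ⟨k, hk⟩ := IsPGroup.iff_orderOf.1 P.isPGroup' ⟨c, hc⟩
    refine ⟨k, ?_⟩
    have := pow_orderOf_eq_one (⟨c, hc⟩ : (P : Subgroup G))
    rw [hk] at this
    exact congrArg Subtype.val this
  obtain ⟨-, a, haR, haz, hag⟩ := anchor h R hR
  obtain ⟨-, b, hbS, hbz, -⟩ := anchor h S hS
  have hpa := hprim R a haR
  have hpb := hprim S b hbS
  have hT := cen_comm h hr.out hs.out hrs haz hbz hpa hpb
  have hcbar := relIndex_dvd h hrs R hR haR haz hag hbz hpa hpb
  have hn0 : n ≠ 0 := by omega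
  -- the `s`-part of `T`
  let Q : Subgroup G :=
    { carrier := {u | u ∈ cen a ∧ IsPrimary s u}
      one_mem' := ⟨one_mem _, 0, by simp⟩
      mul_mem' := by
        rintro u v ⟨hu, k, hk⟩ ⟨hv, l, hl⟩
        refine ⟨mul_mem hu hv, k + l, ?_⟩
        have hc : Commute u v := hT.1 u hu v hv
        rw [hc.mul_pow, pow_add, pow_mul, hk, one_pow, one_mul, mul_comm, pow_mul, hl, one_pow]
      inv_mem' := by
        rintro u ⟨hu, k, hk⟩
        exact ⟨inv_mem hu, k, by rw [inv_pow, hk, inv_one]⟩ }
  have hQmem : ∀ u, u ∈ Q ↔ u ∈ cen a ∧ IsPrimary s u := fun u => Iff.rfl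
  have hQp : IsPGroup s Q := by
    rintro ⟨u, hu⟩
    obtain ⟨k, hk⟩ := ((hQmem u).1 hu).2
    exact ⟨k, Subtype.ext hk⟩
  have hQT : Q ≤ cen a := fun u hu => ((hQmem u).1 hu).1
  -- the set of noncentral elements of `Q`
  let Ω : Set G := {u | u ∈ Q ∧ u ∉ center G}
  have hm : r ^ (n.factorization r) ∣ Ω.ncard := by
    apply dvd_ncard_conj (R : Subgroup G)
    · rintro g hg u ⟨hu, huz⟩
      refine ⟨(hQmem _).2 ⟨conj_mem_cen_of_comm_central (hag g hg) ((hQmem u).1 hu).1, ?_⟩, ?_⟩
      · obtain ⟨k, hk⟩ := ((hQmem u).1 hu).2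
        refine ⟨k, ?_⟩
        rw [conj_pow, hk]
        group
      · intro hz
        apply huz
        have := conj_mem_center (g := g⁻¹) hz
        have h3 : g⁻¹ * (g * u * g⁻¹) * g⁻¹⁻¹ = u := by group
        rwa [h3] at this
    · rintro u ⟨hu, huz⟩
      rw [hT.2 u ((hQmem u).1 hu).1 huz]
      have := ordProj_index_dvd_relIndex R (cen a)
      rwa [index_of_not_center h haz] at this
  -- counting `Ω`
  let d := Nat.card ((center G).subgroupOf Q)
  let e := (center G).relIndex Q
  have hde : d * e = Nat.card Q := card_mul_index _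
  have hd0 : 0 < d := Nat.card_pos
  have hcount : Ω.ncard + d = Nat.card Q := by
    have hsub : ((Q ⊓ center G : Subgroup G) : Set G) ⊆ (Q : Set G) := fun u hu => hu.1
    have h1 := Set.ncard_sdiff_add_ncard_of_subset hsub (Set.toFinite _)
    have h2 : (Q : Set G) \ ((Q ⊓ center G : Subgroup G) : Set G) = Ω := by
      ext u
      constructor
      · rintro ⟨h3, h4⟩
        exact ⟨h3, fun h5 => h4 ⟨h3, h5⟩⟩
      · rintro ⟨h3, h4⟩
        exact ⟨h3, fun h5 => h4 h5.2⟩
    have h3 : ((Q : Set G)).ncard = Nat.card Q := by rw [← Nat.card_coe_set_eq]; rfl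
    have h4 : (((Q ⊓ center G : Subgroup G) : Set G)).ncard = d := by
      rw [← Nat.card_coe_set_eq]
      apply Nat.card_congr
      exact ⟨fun x => ⟨⟨x.1, x.2.1⟩, x.2.2⟩, fun x => ⟨x.1.1, x.1.2, x.2⟩, fun _ => rfl, fun _ => rfl⟩
    rw [h2, h3, h4] at h1
    exact h1
  -- `d` is a power of `s`
  obtain ⟨j, hj⟩ := IsPGroup.iff_card.1 (hQp.to_subgroup ((center G).subgroupOf Q))
  have hcop : Nat.Coprime (r ^ (n.factorization r)) d := by
    show Nat.Coprime _ (Nat.card ((center G).subgroupOf Q))
    rw [hj]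
    exact Nat.Coprime.pow _ _ ((Nat.coprime_primes hr.out hs.out).2 hrs)
  have hΩ : Ω.ncard = d * (e - 1) := by
    have : 1 ≤ e := Nat.pos_of_ne_zero (by
      show ((center G).subgroupOf Q).index ≠ 0
      exact index_ne_zero_of_finite)
    obtain ⟨e', he'⟩ : ∃ e', e = e' + 1 := ⟨e - 1, by omega⟩
    rw [he', Nat.add_sub_cancel, mul_comm]
    have : d * (e' + 1) = Nat.card Q := by rw [← he']; exact hde
    nlinarith [this, hcount]
  have hm2 : r ^ (n.factorization r) ∣ e - 1 := by
    rw [hΩ] at hm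
    exact hcop.dvd_of_dvd_mul_left hm
  -- `e ≠ 1`
  have he1 : e ≠ 1 := by
    intro he
    have hle : Q ≤ center G := relIndex_eq_one.1 he
    have hd : s ∣ (center G).relIndex (cen a) := by
      rw [relIndex_cen_eq h haz hbz]
      exact dvd_relIndex_of_primary hs.out hbz hpb
    haveI := normal_center_subgroupOf (G := G) (cen a)
    obtain ⟨u, huc, huz, hpu⟩ := exists_primary_of_dvd_relIndex hs.out (center G) (cen a) inferInstance hd
    exact huz (hle ((hQmem u).2 ⟨huc, hpu⟩))
  have he0 : e ≠ 0 := by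
    show ((center G).subgroupOf Q).index ≠ 0
    exact index_ne_zero_of_finite
  have hepos : 0 < e - 1 := by omega
  have hle1 : r ^ (n.factorization r) ≤ e - 1 := Nat.le_of_dvd hepos hm2
  -- `e` divides the `s`-part of `n`
  have hedvd : e ∣ (center G).relIndex (cen a) := by
    haveI := normal_center_subgroupOf (G := G) (cen a)
    have h1 := relIndex_dvd_index_of_normal ((center G).subgroupOf (cen a)) (Q.subgroupOf (cen a))
    rwa [relIndex_subgroupOf hQT] at h1
  obtain ⟨i, hi⟩ : ∃ i, e = s ^ i := by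
    have h1 : e ∣ Nat.card Q := ⟨d, by rw [← hde, mul_comm]⟩
    obtain ⟨q, hq⟩ := IsPGroup.iff_card.1 hQp
    rw [hq] at h1
    obtain ⟨i, -, hi⟩ := (Nat.dvd_prime_pow hs.out).1 h1
    exact ⟨i, hi⟩
  have hen : s ^ i ∣ n := by
    rw [← hi]
    exact hedvd.trans hcbar
  have hle2 : i ≤ n.factorization s := (hs.out.pow_dvd_iff_le_factorization hn0).1 hen
  have hle3 : e ≤ s ^ (n.factorization s) := by
    rw [hi]
    exact Nat.pow_le_pow_right hs.out.pos hle2
  omega

/-- At most one prime has a noncentral Sylow subgroup. -/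
theorem sylow_central_of_ne (h : ∀ x : G, (cen x).index = 1 ∨ (cen x).index = n) (hn : 1 < n) {r s : ℕ}
    [hr : Fact r.Prime] [hs : Fact s.Prime] (hrs : r ≠ s) (R : Sylow r G) (S : Sylow s G)
    (hR : ¬ (R : Subgroup G) ≤ center G) : (S : Subgroup G) ≤ center G := by
  by_contra hS
  exact lt_asymm (ordProj_lt h hn hrs R S hR hS) (ordProj_lt h hn hrs.symm S R hS hR)

end TwoSizes

end Cfsg.Agent.Lib.ItoTwo
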