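/-
The element orders of the first Janko group, by a kernel-checked certificate:
`J₁ ⊆ H T` for a subgroup `H` of order 660 and a transversal `T` of size 266, and every element of `J₁` is
conjugate to an element of `H r` with `r` one of five double coset representatives.
-/
import Mathlib
import Cfsg.Agent.Lib.J1Core
import Cfsg.Agent.Lib.J1Data

set_option autoImplicit false

namespace Cfsg.Agent.Lib.J1Spec

open Cfsg Cfsg.Spor Cfsg.Agent.Lib.J1Core Cfsg.Agent.Lib.J1Data
open scoped MatrixGroups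

abbrev GL7 : Type := GL (Fin 7) (ZMod 11)

/-- first generator of `H` -/
def ga : GL7 := ⟨dec Ap, dec Ap', by decide +kernel, by decide +kernel⟩
/-- second generator of `H` -/
def gb : GL7 := ⟨dec Bp, dec Bp', by decide +kernel, by decide +kernel⟩

theorem rep_ga : J1Core.Rep ga Ap := rfl
theorem rep_gb : J1Core.Rep gb Bp := rfl

/-- The subgroup of order 660. -/
def Hs : Subgroup GL7 := Subgroup.closure {ga, gb}

/-- list membership for the kernel -/
def memB (n : ℕ) : List ℕ → Bool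
  | [] => false
  | m :: l => Nat.beq n m || memB n l

theorem memB_sound {n : ℕ} {l : List ℕ} (h : memB n l = true) : n ∈ l := by
  induction l with
  | nil => simp [memB] at h
  | cons m l ih =>
    simp only [memB, Bool.or_eq_true] at h
    rcases h with h | h
    · rw [Nat.eq_of_beq_eq_true h]
      exact List.mem_cons_self
    · exact List.mem_cons_of_mem _ (ih h)

theorem getD_mem {l : List ℕ} {d : ℕ} (hd : d ∈ l) (i : ℕ) : l.getD i d ∈ l := by
  rw [List.getD_eq_getElem?_getD]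
  rcases h : l[i]? with _ | a
  · simpa using hd
  · simpa using List.mem_of_getElem? h

/-! ### Elements of `HL` are in `Hs` -/

/-- The element `m` is the code of an element of `Hs`. -/
def Good (m : ℕ) : Prop := ∃ x ∈ Hs, J1Core.Rep x m

theorem good_one : Good oneP := ⟨1, Hs.one_mem, rep_one⟩

/-- check of the breadth-first tree -/
def treeOK : List ℕ → List (ℕ × Bool) → List ℕ → Bool
  | seen, (p, g) :: c, n :: l =>
      Nat.beq (mulP (seen.getD p oneP) (cond g Ap Bp)) n && treeOK (n :: seen) c l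
  | _, [], [] => true
  | _, _, _ => false

theorem treeOK_sound (seen : List ℕ) (c : List (ℕ × Bool)) (l : List ℕ)
    (hs : ∀ m ∈ seen, Good m) (h : treeOK seen c l = true) : ∀ n ∈ l, Good n := by
  induction l generalizing seen c with
  | nil => simp
  | cons n l ih =>
    cases c with
    | nil => simp [treeOK] at h
    | cons pg c =>
      obtain ⟨p, g⟩ := pg
      simp only [treeOK, Bool.and_eq_true] at h
      obtain ⟨h1, h2⟩ := h
      have hpar : Good (seen.getD p oneP) := by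
        rw [List.getD_eq_getElem?_getD]
        rcases hp : seen[p]? with _ | a
        · simpa using good_one
        · simpa using hs a (List.mem_of_getElem? hp)
      have hn : Good n := by
        obtain ⟨x, hx, hxr⟩ := hpar
        rw [← Nat.eq_of_beq_eq_true h1]
        cases g with
        | true =>
          exact ⟨x * ga, Hs.mul_mem hx (Subgroup.subset_closure (by simp)), hxr.mul rep_ga⟩
        | false =>
          exact ⟨x * gb, Hs.mul_mem hx (Subgroup.subset_closure (by simp)), hxr.mul rep_gb⟩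
      intro m hm
      rcases List.mem_cons.mp hm with rfl | hm
      · exact hn
      · refine ih (n :: seen) c ?_ h2 m hm
        intro k hk
        rcases List.mem_cons.mp hk with rfl | hk
        · exact hn
        · exact hs k hk

theorem HL_eq : HL = oneP :: HL.tail := by decide +kernel

theorem oneP_mem_HL : oneP ∈ HL := by
  rw [HL_eq]
  exact List.mem_cons_self

theorem treeOK_HL : treeOK [oneP] treeCert HL.tail = true := by decide +kernel

theorem good_of_mem_HL {n : ℕ} (hn : n ∈ HL) : Good n := by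
  rw [HL_eq] at hn
  rcases List.mem_cons.mp hn with rfl | hn
  · exact good_one
  · refine treeOK_sound [oneP] treeCert HL.tail ?_ treeOK_HL n hn
    intro m hm
    simp only [List.mem_singleton] at hm
    exact hm ▸ good_one

/-! ### `Hs ⊆ HL` -/

/-- `HL` is closed under right multiplication by the generators -/
def closedOK : List ℕ → Bool
  | [] => true
  | n :: l => memB (mulP n Ap) HL && memB (mulP n Bp) HL && closedOK l

theorem closedOK_sound {l : List ℕ} (h : closedOK l = true) :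
    ∀ n ∈ l, mulP n Ap ∈ HL ∧ mulP n Bp ∈ HL := by
  induction l with
  | nil => simp
  | cons m l ih =>
    simp only [closedOK, Bool.and_eq_true] at h
    intro n hn
    rcases List.mem_cons.mp hn with rfl | hn
    · exact ⟨memB_sound h.1.1, memB_sound h.1.2⟩
    · exact ih h.2 n hn

theorem closedOK_HL : closedOK HL = true := by decide +kernel

theorem exists_HL_of_mem_Hs (x : GL7) (hx : x ∈ Hs) : ∃ n ∈ HL, J1Core.Rep x n := by
  refine closure_subset_of_mul_closed {ga, gb} (fun x => ∃ n ∈ HL, J1Core.Rep x n)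
    ⟨oneP, oneP_mem_HL, rep_one⟩ ?_ x hx
  rintro y ⟨n, hn, hy⟩ s hs
  obtain ⟨h1, h2⟩ := closedOK_sound closedOK_HL n hn
  rcases hs with rfl | hs
  · exact ⟨_, h1, hy.mul rep_ga⟩
  · rw [Set.mem_singleton_iff] at hs
    subst hs
    exact ⟨_, h2, hy.mul rep_gb⟩

/-! ### The transversal -/

theorem TL_eq : TL = oneP :: TL.tail := by decide +kernel

theorem oneP_mem_TL : oneP ∈ TL := by
  rw [TL_eq]
  exact List.mem_cons_self

/-- check of the factorization of `t X`, `t Y` -/
def certTOK : List ℕ → List (ℕ × ℕ × ℕ × ℕ) → Bool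
  | n :: l, (a, b, c, d) :: r =>
      Nat.beq (mulP n Xp) (mulP (HL.getD a oneP) (TL.getD b oneP)) &&
        Nat.beq (mulP n Yp) (mulP (HL.getD c oneP) (TL.getD d oneP)) && certTOK l r
  | [], [] => true
  | _, _ => false

theorem certTOK_sound (l : List ℕ) (r : List (ℕ × ℕ × ℕ × ℕ)) (h : certTOK l r = true) :
    ∀ n ∈ l, (∃ m ∈ HL, ∃ t ∈ TL, mulP n Xp = mulP m t) ∧ (∃ m ∈ HL, ∃ t ∈ TL, mulP n Yp = mulP m t) := by
  induction l generalizing r with
  | nil => simp
  | cons k l ih =>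
    cases r with
    | nil => simp [certTOK] at h
    | cons q r =>
      obtain ⟨a, b, c, d⟩ := q
      simp only [certTOK, Bool.and_eq_true] at h
      intro n hn
      rcases List.mem_cons.mp hn with rfl | hn
      · exact ⟨⟨_, getD_mem oneP_mem_HL a, _, getD_mem oneP_mem_TL b, Nat.eq_of_beq_eq_true h.1.1⟩,
          ⟨_, getD_mem oneP_mem_HL c, _, getD_mem oneP_mem_TL d, Nat.eq_of_beq_eq_true h.1.2⟩⟩
      · exact ih r h.2 n hn

theorem certTOK_TL : certTOK TL certT = true := by decide +kernel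

/-- A matrix identity: if `y` is coded by `m * t` and `h` by `m` then `h⁻¹ y` is coded by `t`. -/
theorem rep_inv_mul {h y : GL7} {m t : ℕ} (hh : J1Core.Rep h m) (hy : J1Core.Rep y (mulP m t)) : J1Core.Rep (h⁻¹ * y) t := by
  unfold J1Core.Rep at *
  rw [dec_mulP, ← hh] at hy
  rw [Units.val_mul, hy, ← mul_assoc]
  have : ((h⁻¹ : GL7) : M7) * (h : M7) = 1 := by
    rw [← Units.val_mul, inv_mul_cancel]
    rfl
  rw [this, one_mul]

/-- `J₁ ⊆ Hs T`. -/
theorem exists_factor (x : GL7) (hx : x ∈ J1) : ∃ h ∈ Hs, ∃ n ∈ TL, J1Core.Rep (h⁻¹ * x) n := by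
  refine closure_subset_of_mul_closed {jankoX, jankoY} (fun x => ∃ h ∈ Hs, ∃ n ∈ TL, J1Core.Rep (h⁻¹ * x) n)
    ⟨1, Hs.one_mem, oneP, oneP_mem_TL, by simpa using rep_one⟩ ?_ x hx
  rintro y ⟨h, hh, n, hn, hy⟩ s hs
  obtain ⟨h1, h2⟩ := certTOK_sound TL certT certTOK_TL n hn
  have step : ∀ (s : GL7) (sp : ℕ), J1Core.Rep s sp → (∃ m ∈ HL, ∃ t ∈ TL, mulP n sp = mulP m t) →
      ∃ h ∈ Hs, ∃ n ∈ TL, J1Core.Rep (h⁻¹ * (y * s)) n := by
    rintro s sp hsp ⟨m, hm, t, ht, hmt⟩
    obtain ⟨h', hh', hr⟩ := good_of_mem_HL hm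
    refine ⟨h * h', Hs.mul_mem hh hh', t, ht, ?_⟩
    have h3 : J1Core.Rep (h⁻¹ * y * s) (mulP m t) := by
      rw [← hmt]
      exact hy.mul hsp
    have h4 := rep_inv_mul hr h3
    have e : (h * h')⁻¹ * (y * s) = h'⁻¹ * (h⁻¹ * y * s) := by group
    rw [e]
    exact h4
  rcases hs with rfl | hs
  · exact step _ _ rep_X h1
  · rw [Set.mem_singleton_iff] at hs
    subst hs
    exact step _ _ rep_Y h2

/-! ### Double cosets -/

theorem Reps_eq : Reps = oneP :: Reps.tail := by decide +kernel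

theorem oneP_mem_Reps : oneP ∈ Reps := by
  rw [Reps_eq]
  exact List.mem_cons_self

/-- check of the reduction to double coset representatives -/
def certDOK : List ℕ → List (ℕ × ℕ × ℕ) → Bool
  | n :: l, (a, b, q) :: r =>
      Nat.beq (mulP n (HL.getD a oneP)) (mulP (HL.getD b oneP) (Reps.getD q oneP)) && certDOK l r
  | [], [] => true
  | _, _ => false

theorem certDOK_sound (l : List ℕ) (r : List (ℕ × ℕ × ℕ)) (h : certDOK l r = true) :
    ∀ n ∈ l, ∃ a ∈ HL, ∃ b ∈ HL, ∃ q ∈ Reps, mulP n a = mulP b q := by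
  induction l generalizing r with
  | nil => simp
  | cons k l ih =>
    cases r with
    | nil => simp [certDOK] at h
    | cons c r =>
      obtain ⟨a, b, q⟩ := c
      simp only [certDOK, Bool.and_eq_true] at h
      intro n hn
      rcases List.mem_cons.mp hn with rfl | hn
      · exact ⟨_, getD_mem oneP_mem_HL a, _, getD_mem oneP_mem_HL b, _, getD_mem oneP_mem_Reps q,
          Nat.eq_of_beq_eq_true h.1⟩
      · exact ih r h.2 n hn

theorem certDOK_TL : certDOK TL certD = true := by decide +kernel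

/-! ### Powers -/

/-- `x ^ 6 = 1` -/
def pow6 (x : ℕ) : Bool :=
  letN (mulP x x) fun x2 => letN (mulP x2 x) fun x3 => Nat.beq (mulP x3 x3) oneP

/-- `x ^ 7 = 1` -/
def pow7 (x : ℕ) : Bool :=
  letN (mulP x x) fun x2 => letN (mulP x2 x) fun x3 => letN (mulP x2 x2) fun x4 => Nat.beq (mulP x4 x3) oneP

/-- `x ^ 10 = 1` -/
def pow10 (x : ℕ) : Bool :=
  letN (mulP x x) fun x2 => letN (mulP x2 x2) fun x4 => letN (mulP x4 x) fun x5 => Nat.beq (mulP x5 x5) oneP

/-- `x ^ 11 = 1` -/
def pow11 (x : ℕ) : Bool :=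
  letN (mulP x x) fun x2 => letN (mulP x2 x2) fun x4 => letN (mulP x4 x) fun x5 =>
    letN (mulP x5 x5) fun x10 => Nat.beq (mulP x10 x) oneP

/-- `x ^ 15 = 1` -/
def pow15 (x : ℕ) : Bool :=
  letN (mulP x x) fun x2 => letN (mulP x2 x2) fun x4 => letN (mulP x4 x) fun x5 =>
    letN (mulP x5 x5) fun x10 => Nat.beq (mulP x10 x5) oneP

/-- `x ^ 19 = 1` -/
def pow19 (x : ℕ) : Bool :=
  letN (mulP x x) fun x2 => letN (mulP x2 x2) fun x4 => letN (mulP x4 x) fun x5 =>
    letN (mulP x5 x4) fun x9 => letN (mulP x5 x5) fun x10 => Nat.beq (mulP x10 x9) oneP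

theorem pow6_sound {y : GL7} {x : ℕ} (h : J1Core.Rep y x) (hc : pow6 x = true) : y ^ 6 = 1 := by
  simp only [pow6, letN_eq] at hc
  have h1 := Nat.eq_of_beq_eq_true hc
  have h2 := ((h.mul h).mul h).mul ((h.mul h).mul h)
  rw [h1] at h2
  have h3 := eq_one_of_rep h2
  refine Eq.trans ?_ h3
  simp only [pow_succ, pow_zero, one_mul, mul_assoc]

theorem pow7_sound {y : GL7} {x : ℕ} (h : J1Core.Rep y x) (hc : pow7 x = true) : y ^ 7 = 1 := by
  simp only [pow7, letN_eq] at hc
  have h1 := Nat.eq_of_beq_eq_true hc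
  have h2 := ((h.mul h).mul (h.mul h)).mul ((h.mul h).mul h)
  rw [h1] at h2
  have h3 := eq_one_of_rep h2
  refine Eq.trans ?_ h3
  simp only [pow_succ, pow_zero, one_mul, mul_assoc]

theorem pow10_sound {y : GL7} {x : ℕ} (h : J1Core.Rep y x) (hc : pow10 x = true) : y ^ 10 = 1 := by
  simp only [pow10, letN_eq] at hc
  have h1 := Nat.eq_of_beq_eq_true hc
  have h5 := ((h.mul h).mul (h.mul h)).mul h
  have h2 := h5.mul h5
  rw [h1] at h2
  have h3 := eq_one_of_rep h2
  refine Eq.trans ?_ h3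
  simp only [pow_succ, pow_zero, one_mul, mul_assoc]

theorem pow11_sound {y : GL7} {x : ℕ} (h : J1Core.Rep y x) (hc : pow11 x = true) : y ^ 11 = 1 := by
  simp only [pow11, letN_eq] at hc
  have h1 := Nat.eq_of_beq_eq_true hc
  have h5 := ((h.mul h).mul (h.mul h)).mul h
  have h2 := (h5.mul h5).mul h
  rw [h1] at h2
  have h3 := eq_one_of_rep h2
  refine Eq.trans ?_ h3
  simp only [pow_succ, pow_zero, one_mul, mul_assoc]

theorem pow15_sound {y : GL7} {x : ℕ} (h : J1Core.Rep y x) (hc : pow15 x = true) : y ^ 15 = 1 := by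
  simp only [pow15, letN_eq] at hc
  have h1 := Nat.eq_of_beq_eq_true hc
  have h5 := ((h.mul h).mul (h.mul h)).mul h
  have h2 := (h5.mul h5).mul h5
  rw [h1] at h2
  have h3 := eq_one_of_rep h2
  refine Eq.trans ?_ h3
  simp only [pow_succ, pow_zero, one_mul, mul_assoc]

theorem pow19_sound {y : GL7} {x : ℕ} (h : J1Core.Rep y x) (hc : pow19 x = true) : y ^ 19 = 1 := by
  simp only [pow19, letN_eq] at hc
  have h1 := Nat.eq_of_beq_eq_true hc
  have h4 := (h.mul h).mul (h.mul h)
  have h5 := h4.mul h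
  have h2 := (h5.mul h5).mul (h5.mul h4)
  rw [h1] at h2
  have h3 := eq_one_of_rep h2
  refine Eq.trans ?_ h3
  simp only [pow_succ, pow_zero, one_mul, mul_assoc]

/-- the chosen test -/
def ck (e x : ℕ) : Bool :=
  cond (Nat.beq e 6) (pow6 x) (cond (Nat.beq e 10) (pow10 x) (cond (Nat.beq e 19) (pow19 x)
    (cond (Nat.beq e 7) (pow7 x) (cond (Nat.beq e 11) (pow11 x) (cond (Nat.beq e 15) (pow15 x) false)))))

/-- The property of `J₁`'s elements. -/
def PowProp (y : GL7) : Prop := y ^ 6 = 1 ∨ y ^ 7 = 1 ∨ y ^ 10 = 1 ∨ y ^ 11 = 1 ∨ y ^ 15 = 1 ∨ y ^ 19 = 1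

theorem ck_sound {y : GL7} {x e : ℕ} (h : J1Core.Rep y x) (hc : ck e x = true) : PowProp y := by
  unfold ck at hc
  cases h6 : Nat.beq e 6
  · cases h10 : Nat.beq e 10
    · cases h19 : Nat.beq e 19
      · cases h7 : Nat.beq e 7
        · cases h11 : Nat.beq e 11
          · cases h15 : Nat.beq e 15
            · simp [h6, h10, h19, h7, h11, h15] at hc
            · simp only [h6, h10, h19, h7, h11, h15, cond_false, cond_true] at hc
              exact Or.inr (Or.inr (Or.inr (Or.inr (Or.inl (pow15_sound h hc)))))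
          · simp only [h6, h10, h19, h7, h11, cond_false, cond_true] at hc
            exact Or.inr (Or.inr (Or.inr (Or.inl (pow11_sound h hc))))
        · simp only [h6, h10, h19, h7, cond_false, cond_true] at hc
          exact Or.inr (Or.inl (pow7_sound h hc))
      · simp only [h6, h10, h19, cond_false, cond_true] at hc
        exact Or.inr (Or.inr (Or.inr (Or.inr (Or.inr (pow19_sound h hc)))))
    · simp only [h6, h10, cond_false, cond_true] at hc
      exact Or.inr (Or.inr (Or.inl (pow10_sound h hc)))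
  · simp only [h6, cond_true] at hc
    exact Or.inl (pow6_sound h hc)

/-- the test for one representative -/
def ckHL (r : ℕ) : List ℕ → List ℕ → Bool
  | h :: hs, e :: es => letN (mulP h r) (ck e) && ckHL r hs es
  | [], [] => true
  | _, _ => false

theorem ckHL_sound {r : ℕ} (l e : List ℕ) (h : ckHL r l e = true) :
    ∀ n ∈ l, ∃ e₀, ck e₀ (mulP n r) = true := by
  induction l generalizing e with
  | nil => simp
  | cons k l ih =>
    cases e with
    | nil => simp [ckHL] at h
    | cons e₀ e =>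
      simp only [ckHL, Bool.and_eq_true, letN_eq] at h
      intro n hn
      rcases List.mem_cons.mp hn with rfl | hn
      · exact ⟨e₀, h.1⟩
      · exact ih e h.2 n hn

/-- all the tests -/
def ckAll : List ℕ → List (List ℕ) → Bool
  | r :: rs, L :: Ls => ckHL r HL L && ckAll rs Ls
  | [], [] => true
  | _, _ => false

theorem ckAll_sound (rs : List ℕ) (Ls : List (List ℕ)) (h : ckAll rs Ls = true) :
    ∀ r ∈ rs, ∀ n ∈ HL, ∃ e₀, ck e₀ (mulP n r) = true := by
  induction rs generalizing Ls with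
  | nil => simp
  | cons k rs ih =>
    cases Ls with
    | nil => simp [ckAll] at h
    | cons L Ls =>
      simp only [ckAll, Bool.and_eq_true] at h
      intro r hr
      rcases List.mem_cons.mp hr with rfl | hr
      · exact ckHL_sound _ _ h.1
      · exact ih Ls h.2 r hr

theorem ckAll_ok : ckAll Reps labels = true := by decide +kernel

/-- Element orders of `J₁`: upper bound. -/
theorem powProp_of_mem_J1 (x : GL7) (hx : x ∈ J1) : PowProp x := by
  obtain ⟨h, hh, n, hn, hr⟩ := exists_factor x hx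
  obtain ⟨a, ha, b, hb, q, hq, hab⟩ := certDOK_sound TL certD certDOK_TL n hn
  obtain ⟨g₀, hg₀, hr₀⟩ := good_of_mem_HL ha
  obtain ⟨g₁, hg₁, hr₁⟩ := good_of_mem_HL hb
  -- `z = g₁⁻¹ (h⁻¹ x) g₀` is coded by `q`
  have h1 : J1Core.Rep (h⁻¹ * x * g₀) (mulP b q) := by
    rw [← hab]
    exact hr.mul hr₀
  have h2 := rep_inv_mul hr₁ h1
  -- `g₂ = g₀⁻¹ h g₁` lies in `Hs`
  have hg₂ : g₀⁻¹ * h * g₁ ∈ Hs := Hs.mul_mem (Hs.mul_mem (Hs.inv_mem hg₀) hh) hg₁
  obtain ⟨m, hm, hmr⟩ := exists_HL_of_mem_Hs _ hg₂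
  have h3 := hmr.mul h2
  obtain ⟨e, he⟩ := ckAll_sound Reps labels ckAll_ok q hq m hm
  have h4 := ck_sound h3 he
  have e1 : g₀⁻¹ * h * g₁ * (g₁⁻¹ * (h⁻¹ * x * g₀)) = g₀⁻¹ * x * g₀ := by group
  rw [e1] at h4
  -- conjugation invariance
  have hc : ∀ k : ℕ, (g₀⁻¹ * x * g₀) ^ k = 1 → x ^ k = 1 := by
    intro k hk
    have e2 : (g₀⁻¹ * x * g₀) ^ k = g₀⁻¹ * x ^ k * g₀ := by
      have := conj_pow (a := g₀⁻¹) (b := x) (i := k)
      simpa using this
    rw [e2] at hk
    have : x ^ k = g₀ * (g₀⁻¹ * x ^ k * g₀) * g₀⁻¹ := by group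
    rw [this, hk]
    group
  rcases h4 with h4 | h4 | h4 | h4 | h4 | h4
  · exact Or.inl (hc _ h4)
  · exact Or.inr (Or.inl (hc _ h4))
  · exact Or.inr (Or.inr (Or.inl (hc _ h4)))
  · exact Or.inr (Or.inr (Or.inr (Or.inl (hc _ h4))))
  · exact Or.inr (Or.inr (Or.inr (Or.inr (Or.inl (hc _ h4)))))
  · exact Or.inr (Or.inr (Or.inr (Or.inr (Or.inr (hc _ h4)))))

/-- The element orders of `J₁`: every element has order `1, 2, 3, 5, 6, 7, 10, 11, 15` or `19`. -/
theorem orderOf_mem_of_mem_J1 (x : GL7) (hx : x ∈ J1) :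
    orderOf x ∈ ({1, 2, 3, 5, 6, 7, 10, 11, 15, 19} : Finset ℕ) := by
  have sub : ∀ n : ℕ, n ∈ [6, 7, 10, 11, 15, 19] →
      n.divisors ⊆ ({1, 2, 3, 5, 6, 7, 10, 11, 15, 19} : Finset ℕ) := by
    decide
  have hn : ∃ n ∈ [6, 7, 10, 11, 15, 19], x ^ n = 1 := by
    rcases powProp_of_mem_J1 x hx with h | h | h | h | h | h
    · exact ⟨6, by simp, h⟩
    · exact ⟨7, by simp, h⟩
    · exact ⟨10, by simp, h⟩
    · exact ⟨11, by simp, h⟩
    · exact ⟨15, by simp, h⟩
    · exact ⟨19, by simp, h⟩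
  obtain ⟨n, hn, hp⟩ := hn
  have hn0 : n ≠ 0 := by
    rintro rfl
    simp at hn
  exact sub n hn (Nat.mem_divisors.mpr ⟨orderOf_dvd_of_pow_eq_one hp, hn0⟩)

/-! ### Elements of each order -/

/-- iterated product -/
def powN (x : ℕ) : ℕ → ℕ
  | 0 => oneP
  | k + 1 => mulP (powN x k) x

theorem rep_pow {y : GL7} {x : ℕ} (h : J1Core.Rep y x) (k : ℕ) : J1Core.Rep (y ^ k) (powN x k) := by
  induction k with
  | zero => simpa [powN] using rep_one
  | succ k ih =>
    rw [pow_succ]
    exact ih.mul h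

theorem pow_eq_one_of_check {y : GL7} {x : ℕ} (h : J1Core.Rep y x) {k : ℕ} (hc : powN x k = oneP) : y ^ k = 1 := by
  have := rep_pow h k
  rw [hc] at this
  exact eq_one_of_rep this

theorem pow_ne_one_of_check {y : GL7} {x : ℕ} (h : J1Core.Rep y x) {k : ℕ} (hc : dec (powN x k) ≠ 1) : y ^ k ≠ 1 :=
  ne_one_of_rep (rep_pow h k) hc

theorem X_mem : jankoX ∈ J1 := Subgroup.subset_closure (by simp)
theorem Y_mem : jankoY ∈ J1 := Subgroup.subset_closure (by simp)

/-- the element of order `6` -/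
def g6 : GL7 := jankoX * jankoY * jankoY * jankoY
/-- code of `g6` -/
def c6 : ℕ := mulP (mulP (mulP Xp Yp) Yp) Yp
theorem rep_g6 : J1Core.Rep g6 c6 := ((rep_X.mul rep_Y).mul rep_Y).mul rep_Y
theorem g6_mem : g6 ∈ J1 := J1.mul_mem (J1.mul_mem (J1.mul_mem X_mem Y_mem) Y_mem) Y_mem

/-- the element of order `10` -/
def g10 : GL7 := jankoX * jankoY
/-- code of `g10` -/
def c10 : ℕ := mulP Xp Yp
theorem rep_g10 : J1Core.Rep g10 c10 := rep_X.mul rep_Y
theorem g10_mem : g10 ∈ J1 := J1.mul_mem X_mem Y_mem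

/-- the element of order `15` -/
def g15 : GL7 := jankoX * jankoX * jankoY * jankoY * jankoX * jankoY * jankoX * jankoY * jankoY
/-- code of `g15` -/
def c15 : ℕ := mulP (mulP (mulP (mulP (mulP (mulP (mulP (mulP Xp Xp) Yp) Yp) Xp) Yp) Xp) Yp) Yp
theorem rep_g15 : J1Core.Rep g15 c15 :=
  ((((((((rep_X.mul rep_X).mul rep_Y).mul rep_Y).mul rep_X).mul rep_Y).mul rep_X).mul rep_Y).mul rep_Y)
theorem g15_mem : g15 ∈ J1 :=
  J1.mul_mem (J1.mul_mem (J1.mul_mem (J1.mul_mem (J1.mul_mem (J1.mul_mem (J1.mul_mem (J1.mul_mem X_mem X_mem)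
    Y_mem) Y_mem) X_mem) Y_mem) X_mem) Y_mem) Y_mem

/-- the element of order `11` -/
def g11 : GL7 := jankoX * jankoY * jankoY
/-- code of `g11` -/
def c11 : ℕ := mulP (mulP Xp Yp) Yp
theorem rep_g11 : J1Core.Rep g11 c11 := (rep_X.mul rep_Y).mul rep_Y
theorem g11_mem : g11 ∈ J1 := J1.mul_mem (J1.mul_mem X_mem Y_mem) Y_mem

/-- the element of order `19` -/
def g19 : GL7 := jankoX * jankoX * jankoX * jankoY
/-- code of `g19` -/
def c19 : ℕ := mulP (mulP (mulP Xp Xp) Xp) Yp
theorem rep_g19 : J1Core.Rep g19 c19 := ((rep_X.mul rep_X).mul rep_X).mul rep_Y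
theorem g19_mem : g19 ∈ J1 := J1.mul_mem (J1.mul_mem (J1.mul_mem X_mem X_mem) X_mem) Y_mem

theorem primes_of_dvd {p n : ℕ} (hp : p.Prime) (hd : p ∣ n) (l : List ℕ)
    (hl : ∀ q ∈ n.divisors, q ∈ l ∨ ¬ q.Prime) (hn : n ≠ 0) : p ∈ l := by
  rcases hl p (Nat.mem_divisors.mpr ⟨hd, hn⟩) with h | h
  · exact h
  · exact absurd hp h

theorem orderOf_g6 : orderOf g6 = 6 := by
  refine orderOf_eq_of_pow_and_pow_div_prime (by norm_num)
    (pow_eq_one_of_check rep_g6 (by decide +kernel)) ?_
  intro p hp hd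
  have := primes_of_dvd hp hd [2, 3] (by decide +kernel) (by norm_num)
  simp only [List.mem_cons, List.not_mem_nil, or_false] at this
  rcases this with rfl | rfl
  · exact pow_ne_one_of_check rep_g6 (by decide +kernel)
  · exact pow_ne_one_of_check rep_g6 (by decide +kernel)

theorem orderOf_g10 : orderOf g10 = 10 := by
  refine orderOf_eq_of_pow_and_pow_div_prime (by norm_num)
    (pow_eq_one_of_check rep_g10 (by decide +kernel)) ?_
  intro p hp hd
  have := primes_of_dvd hp hd [2, 5] (by decide +kernel) (by norm_num)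
  simp only [List.mem_cons, List.not_mem_nil, or_false] at this
  rcases this with rfl | rfl
  · exact pow_ne_one_of_check rep_g10 (by decide +kernel)
  · exact pow_ne_one_of_check rep_g10 (by decide +kernel)

theorem orderOf_g15 : orderOf g15 = 15 := by
  refine orderOf_eq_of_pow_and_pow_div_prime (by norm_num)
    (pow_eq_one_of_check rep_g15 (by decide +kernel)) ?_
  intro p hp hd
  have := primes_of_dvd hp hd [3, 5] (by decide +kernel) (by norm_num)
  simp only [List.mem_cons, List.not_mem_nil, or_false] at this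
  rcases this with rfl | rfl
  · exact pow_ne_one_of_check rep_g15 (by decide +kernel)
  · exact pow_ne_one_of_check rep_g15 (by decide +kernel)

theorem orderOf_X : orderOf jankoX = 7 :=
  haveI : Fact (Nat.Prime 7) := ⟨by norm_num⟩
  orderOf_eq_prime (pow_eq_one_of_check rep_X (by decide +kernel))
    (ne_one_of_rep rep_X (by decide +kernel))

theorem orderOf_g11 : orderOf g11 = 11 :=
  haveI : Fact (Nat.Prime 11) := ⟨by norm_num⟩
  orderOf_eq_prime (pow_eq_one_of_check rep_g11 (by decide +kernel))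
    (ne_one_of_rep rep_g11 (by decide +kernel))

theorem orderOf_g19 : orderOf g19 = 19 :=
  haveI : Fact (Nat.Prime 19) := ⟨by norm_num⟩
  orderOf_eq_prime (pow_eq_one_of_check rep_g19 (by decide +kernel))
    (ne_one_of_rep rep_g19 (by decide +kernel))

/-- `J₁` contains elements of each order in its spectrum. -/
theorem exists_orderOf_eq (n : ℕ) (hn : n ∈ ({1, 2, 3, 5, 6, 7, 10, 11, 15, 19} : Finset ℕ)) :
    ∃ x : J1, orderOf x = n := by
  have key : ∀ (y : GL7), y ∈ J1 → orderOf y = n → ∃ x : J1, orderOf x = n := fun y hy hn =>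
    ⟨⟨y, hy⟩, by rw [Subgroup.orderOf_mk]; exact hn⟩
  simp only [Finset.mem_insert, Finset.mem_singleton] at hn
  rcases hn with rfl | rfl | rfl | rfl | rfl | rfl | rfl | rfl | rfl | rfl
  · exact ⟨1, orderOf_one⟩
  · refine key (g6 ^ 3) (J1.pow_mem g6_mem 3) ?_
    rw [orderOf_pow_of_dvd (by norm_num) (by rw [orderOf_g6]; norm_num), orderOf_g6]
  · refine key (g6 ^ 2) (J1.pow_mem g6_mem 2) ?_
    rw [orderOf_pow_of_dvd (by norm_num) (by rw [orderOf_g6]; norm_num), orderOf_g6]
  · refine key (g10 ^ 2) (J1.pow_mem g10_mem 2) ?_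
    rw [orderOf_pow_of_dvd (by norm_num) (by rw [orderOf_g10]; norm_num), orderOf_g10]
  · exact key _ g6_mem orderOf_g6
  · exact key _ X_mem orderOf_X
  · exact key _ g10_mem orderOf_g10
  · exact key _ g11_mem orderOf_g11
  · exact key _ g15_mem orderOf_g15
  · exact key _ g19_mem orderOf_g19

/-- The spectrum of `J₁`. -/
theorem range_orderOf_J1 :
    Set.range (orderOf : J1 → ℕ) = ↑({1, 2, 3, 5, 6, 7, 10, 11, 15, 19} : Finset ℕ) := by
  ext n
  constructor
  · rintro ⟨x, rfl⟩
    have := orderOf_mem_of_mem_J1 x.1 x.2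
    rwa [Subgroup.orderOf_coe] at this
  · intro hn
    exact exists_orderOf_eq n hn

end Cfsg.Agent.Lib.J1Spec
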