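import Mathlib
import Cfsg.Agent.Lib.J2FusData
import Cfsg.Agent.Lib.FusionEmbed
import Cfsg.Agent.Lib.PuigBasic

set_option autoImplicit false
set_option maxRecDepth 100000

/-!
# The `2`-fusion system of `J₂` is simple
-/

namespace Cfsg.Agent.Lib.J2Fus

open Cfsg.Agent.Lib.PermChain12 Cfsg.Agent.Lib.IcoChain Cfsg.Agent.Lib.IcoP Cfsg.Agent.Lib.J2FusData

/-- The ambient permutation group. -/
abbrev Pm := Equiv.Perm (Fin 315)

/-- The element of a word. -/
noncomputable def El (w : List ℕ) : Pm := wval (fun l => Gp tbl (0 + l)) w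

theorem El_nil : El [] = 1 := rfl

theorem El_append (p q : List ℕ) : El (p ++ q) = El q * El p := wval_append _ _ _

theorem okW_spec {w : List ℕ} (hw : okW w = true) : ∀ l ∈ w, l < 11 := by
  intro l hl
  have := List.all_eq_true.mp hw l hl
  exact Nat.le_of_ble_eq_true this

theorem okW_append {p q : List ℕ} (hp : okW p = true) (hq : okW q = true) : okW (p ++ q) = true := by
  unfold okW at *
  rw [List.all_append, hp, hq]
  rfl

theorem okW_nil : okW [] = true := rfl

theorem El_apply {w : List ℕ} (hw : okW w = true) (x : Fin 315) : ((El w) x).val = walkF T w x.val := by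
  rw [walkF_eq]
  exact wval_Gp tbl 0 w (fun l hl => by have := okW_spec hw l hl; show 0 + l < 13; omega) x

theorem letter_mem {l : ℕ} (hl : l < 11) : Gp tbl (0 + l) ∈ Pg := by
  by_cases h4 : l < 4
  · rw [Nat.zero_add]
    exact gen_mem h4
  · by_cases h8 : l < 8
    · apply K1_le
      refine Subgroup.subset_closure ⟨l - 4, ?_, ?_⟩
      · show l - 4 < 4
        omega
      · show Gp tbl (4 + (l - 4)) = Gp tbl (0 + l)
        congr 1
        omega
    · apply K1_le
      apply lev1.hKle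
      refine Subgroup.subset_closure ⟨l - 8, ?_, ?_⟩
      · show l - 8 < 3
        omega
      · show Gp tbl (8 + (l - 8)) = Gp tbl (0 + l)
        congr 1
        omega

theorem El_mem {w : List ℕ} (hw : okW w = true) : El w ∈ Pg :=
  wval_mem _ _ _ (fun l hl => letter_mem (okW_spec hw l hl))

/-- The base points. -/
noncomputable def bb0 : Fin 315 := ⟨D0 0 % 315, Nat.mod_lt _ (by norm_num)⟩
/-- The base points. -/
noncomputable def bb1 : Fin 315 := ⟨D1 0 % 315, Nat.mod_lt _ (by norm_num)⟩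
/-- The base points. -/
noncomputable def bb2 : Fin 315 := ⟨D2 0 % 315, Nat.mod_lt _ (by norm_num)⟩

theorem bb0_val : bb0.val = 0 := by decide +kernel
theorem bb1_val : bb1.val = 27 := by decide +kernel
theorem bb2_val : bb2.val = 3 := by decide +kernel

theorem K2_le : K2 ≤ K1 := lev1.hKle

theorem K3_eq : Subgroup.closure ((fun l => Gp tbl (11 + l)) '' Set.Iio 0) = ⊥ := by
  rw [Subgroup.closure_eq_bot_iff]
  rintro _ ⟨l, hl, rfl⟩
  exact absurd hl (by simp)

theorem mem_K1_of_fix {h : Pm} (hh : h ∈ Pg) (h0 : h bb0 = bb0) : h ∈ K1 := lev0.mem_of_fix h hh h0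

theorem mem_K2_of_fix {h : Pm} (hh : h ∈ K1) (h1 : h bb1 = bb1) : h ∈ K2 := lev1.mem_of_fix h hh h1

theorem eq_one_of_fix2 {h : Pm} (hh : h ∈ K2) (h2 : h bb2 = bb2) : h = 1 := by
  have h3 := lev2.mem_of_fix h hh h2
  rw [K3_eq, Subgroup.mem_bot] at h3
  exact h3

theorem eq_one_of_base {h : Pm} (hh : h ∈ Pg) (h0 : h bb0 = bb0) (h1 : h bb1 = bb1) (h2 : h bb2 = bb2) : h = 1 :=
  eq_one_of_fix2 (mem_K2_of_fix (mem_K1_of_fix hh h0) h1) h2

theorem eq_of_base {c d : Pm} (hc : c ∈ Pg) (hd : d ∈ Pg) (h0 : c bb0 = d bb0) (h1 : c bb1 = d bb1)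
    (h2 : c bb2 = d bb2) : c = d := by
  have h := eq_one_of_base (h := d⁻¹ * c) (Pg.mul_mem (Pg.inv_mem hd) hc) (by
    rw [Equiv.Perm.mul_apply, h0, Equiv.Perm.inv_eq_iff_eq]) (by
    rw [Equiv.Perm.mul_apply, h1, Equiv.Perm.inv_eq_iff_eq]) (by
    rw [Equiv.Perm.mul_apply, h2, Equiv.Perm.inv_eq_iff_eq])
  rw [inv_mul_eq_one] at h
  exact h.symm

theorem El_eq_of_agree {w₁ w₂ : List ℕ} (h₁ : okW w₁ = true) (h₂ : okW w₂ = true) (h : agreeB w₁ w₂ = true) :
    El w₁ = El w₂ := by
  simp only [agreeB, agree, Bool.and_eq_true] at h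
  obtain ⟨a0, a1, a2⟩ := h
  apply eq_of_base (El_mem h₁) (El_mem h₂)
  · apply Fin.ext
    rw [El_apply h₁, El_apply h₂, bb0_val]
    exact Nat.eq_of_beq_eq_true a0
  · apply Fin.ext
    rw [El_apply h₁, El_apply h₂, bb1_val]
    exact Nat.eq_of_beq_eq_true a1
  · apply Fin.ext
    rw [El_apply h₁, El_apply h₂, bb2_val]
    exact Nat.eq_of_beq_eq_true a2

theorem ok_wd' {i : ℕ} (hi : i < 7) : okW (wd i) = true := allB_spec _ _ _ (by norm_num) ok_wd i hi

theorem ok_cond (b : Bool) {w : List ℕ} (hw : okW w = true) : okW (cond b w []) = true := by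
  cases b
  · rfl
  · exact hw

theorem ok_nf (e : ℕ) : okW (nfW e) = true := by
  unfold nfW
  repeat' apply okW_append
  all_goals exact ok_cond _ (ok_wd' (by norm_num))

/-- The Sylow subgroup. -/
noncomputable def S₀ : Subgroup Pm := Subgroup.closure ((fun i => El (wd i)) '' Set.Iio 7)

/-- The extraspecial subgroup. -/
noncomputable def R₀ : Subgroup Pm := Subgroup.closure ((fun i => El (wd (2 + i))) '' Set.Iio 5)

theorem gen_memS {i : ℕ} (hi : i < 7) : El (wd i) ∈ S₀ := Subgroup.subset_closure ⟨i, hi, rfl⟩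

theorem gen_memR {i : ℕ} (hi : i < 5) : El (wd (2 + i)) ∈ R₀ := Subgroup.subset_closure ⟨i, hi, rfl⟩

theorem R_le_S : R₀ ≤ S₀ := by
  rw [R₀, Subgroup.closure_le]
  rintro _ ⟨i, hi, rfl⟩
  exact gen_memS (by have : i < 5 := hi; omega)

theorem S_le_Pg : S₀ ≤ Pg := by
  rw [S₀, Subgroup.closure_le]
  rintro _ ⟨i, hi, rfl⟩
  exact El_mem (ok_wd' hi)

theorem nf_memS (e : ℕ) : El (nfW e) ∈ S₀ := by
  have hf : ∀ k, k < 7 → El (cond (e.testBit k) (wd k) []) ∈ S₀ := by
    intro k hk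
    cases e.testBit k
    · exact S₀.one_mem
    · exact gen_memS hk
  simp only [nfW, El_append]
  exact S₀.mul_mem (S₀.mul_mem (S₀.mul_mem (S₀.mul_mem (S₀.mul_mem (S₀.mul_mem (hf 0 (by norm_num))
    (hf 1 (by norm_num))) (hf 2 (by norm_num))) (hf 3 (by norm_num))) (hf 4 (by norm_num))) (hf 5 (by norm_num)))
    (hf 6 (by norm_num))

theorem nf_memR {e : ℕ} (he : e % 4 = 0) : El (nfW e) ∈ R₀ := by
  have hf : ∀ k, k < 5 → El (cond (e.testBit (2 + k)) (wd (2 + k)) []) ∈ R₀ := by
    intro k hk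
    cases e.testBit (2 + k)
    · exact R₀.one_mem
    · exact gen_memR hk
  have h0 : e.testBit 0 = false := by
    rw [Nat.testBit_zero]
    simp
    omega
  have h1 : e.testBit 1 = false := by
    rw [Nat.testBit_succ, Nat.testBit_zero]
    simp
    omega
  simp only [nfW, El_append, h0, h1]
  have hone : El (cond false (wd 0) []) = 1 := rfl
  have hone' : El (cond false (wd 1) []) = 1 := rfl
  rw [hone, hone', one_mul, one_mul]
  exact R₀.mul_mem (R₀.mul_mem (R₀.mul_mem (R₀.mul_mem (hf 0 (by norm_num))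
    (hf 1 (by norm_num))) (hf 2 (by norm_num))) (hf 3 (by norm_num))) (hf 4 (by norm_num))

theorem clos {i e : ℕ} (hi : i < 7) (he : e < 128) : ∃ e', e' < 128 ∧ El (wd i) * El (nfW e) = El (nfW e') := by
  have h1 := allB_spec _ _ _ (by norm_num) (allB_spec _ _ _ (by norm_num) clos_chk i hi) e he
  rw [force_eq] at h1
  simp only [Bool.and_eq_true] at h1
  refine ⟨_, Nat.le_of_ble_eq_true h1.1, ?_⟩
  rw [← El_append]
  exact El_eq_of_agree (okW_append (ok_nf e) (ok_wd' hi)) (ok_nf _) h1.2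

theorem nfW_zero : nfW 0 = [] := by decide +kernel

theorem S_eq {x : Pm} (hx : x ∈ S₀) : ∃ e, e < 128 ∧ x = El (nfW e) := by
  rw [S₀, ← Subgroup.mem_toSubmonoid, Subgroup.closure_toSubmonoid_of_finite] at hx
  induction hx using Submonoid.closure_induction_left with
  | one => exact ⟨0, by norm_num, by rw [nfW_zero]; rfl⟩
  | mul_left s hs y _ ih =>
    obtain ⟨i, hi, rfl⟩ := hs
    obtain ⟨e, he, rfl⟩ := ih
    obtain ⟨e', he', h⟩ := clos hi he
    exact ⟨e', he', h⟩

theorem Et_nf {e : ℕ} (he : e < 128) : Et (walkF T (nfW e) 27) = e :=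
  Nat.eq_of_beq_eq_true (allB_spec _ _ _ (by norm_num) inj_chk e he)

theorem nf_val (e : ℕ) (x : Fin 315) : ((El (nfW e)) x).val = walkF T (nfW e) x.val := El_apply (ok_nf e) x

theorem nf_inj {e e' : ℕ} (he : e < 128) (he' : e' < 128) (h : El (nfW e) = El (nfW e')) : e = e' := by
  have h1 := nf_val e bb1
  have h2 := nf_val e' bb1
  rw [h, h2, bb1_val] at h1
  rw [← Et_nf he, ← Et_nf he', h1]

/-- The order of the Sylow subgroup. -/
theorem card_S : Nat.card S₀ = 2 ^ 7 := by
  let f : Fin 128 → S₀ := fun e => ⟨El (nfW e.val), nf_memS _⟩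
  have hf : Function.Bijective f := by
    constructor
    · intro a b hab
      exact Fin.ext (nf_inj a.2 b.2 (congrArg Subtype.val hab))
    · rintro ⟨x, hx⟩
      obtain ⟨e, he, rfl⟩ := S_eq hx
      exact ⟨⟨e, he⟩, rfl⟩
  rw [← Nat.card_eq_of_bijective f hf]
  simp

theorem stab_trivial {x : Pm} (hx : x ∈ S₀) (h : x bb1 = bb1) : x = 1 := by
  obtain ⟨e, he, rfl⟩ := S_eq hx
  have h1 := nf_val e bb1
  rw [h, bb1_val] at h1
  have h2 := Et_nf he
  rw [← h1] at h2
  have h3 : walkF T (nfW 0) 27 = 27 := by decide +kernel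
  have h4 := Et_nf (e := 0) (by norm_num)
  rw [h3] at h4
  have h5 : e = 0 := h2.symm.trans h4
  subst h5
  rw [nfW_zero]
  rfl

theorem fix0_gen {i : ℕ} (hi : i < 7) : El (wd i) bb0 = bb0 := by
  apply Fin.ext
  rw [El_apply (ok_wd' hi), bb0_val]
  exact Nat.eq_of_beq_eq_true (allB_spec _ _ _ (by norm_num) fix0_chk i hi)

theorem S_fix0 {x : Pm} (hx : x ∈ S₀) : x bb0 = bb0 := by
  induction hx using Subgroup.closure_induction with
  | mem x hx =>
    obtain ⟨i, hi, rfl⟩ := hx
    exact fix0_gen hi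
  | one => rfl
  | mul x y _ _ hx hy => rw [Equiv.Perm.mul_apply, hy, hx]
  | inv x _ hx => rw [Equiv.Perm.inv_eq_iff_eq, hx]

/-- A point fixed by the generators of the extraspecial group is the base point. -/
theorem fixQ {p : Fin 315} (h : ∀ i, i < 5 → El (wd (2 + i)) p = p) : p = bb0 := by
  have h1 := allB_spec _ _ _ (by norm_num) fixQ_chk p.val p.2
  simp only [Bool.or_eq_true] at h1
  have hv : ∀ i, i < 5 → walkF T (wd (2 + i)) p.val = p.val := by
    intro i hi
    rw [← El_apply (ok_wd' (by omega)), h i hi]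
  rcases h1 with h1 | h1
  · apply Fin.ext
    rw [bb0_val]
    exact Nat.eq_of_beq_eq_true h1
  · exfalso
    have e2 := hv 0 (by norm_num)
    have e3 := hv 1 (by norm_num)
    have e4 := hv 2 (by norm_num)
    have e5 := hv 3 (by norm_num)
    have e6 := hv 4 (by norm_num)
    simp only [Nat.reduceAdd] at e2 e3 e4 e5 e6
    simp [e2, e3, e4, e5, e6] at h1

theorem trF_spec (s : ℕ → Pm) (G' : ℕ → ℕ → ℕ) (par gen : ℕ → ℕ) (m k0 : ℕ)
    (hs : ∀ l, l < k0 → ∀ x : Fin 315, (s l x).val = G' l x.val)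
    (htree : ∀ y, y < m → 0 < y → par y < y ∧ gen y < k0) :
    ∀ fuel y, y ≤ fuel → y < m → ∀ x : Fin 315, ((tr s par gen y) x).val = trF G' par gen fuel y x.val := by
  intro fuel
  induction fuel with
  | zero =>
    intro y hy _ x
    have : y = 0 := by omega
    subst this
    rw [tr_zero]
    rfl
  | succ f ih =>
    intro y hy hym x
    rcases Nat.eq_zero_or_pos y with rfl | h0
    · rw [tr_zero]
      rfl
    · obtain ⟨h1, h2⟩ := htree y hym h0
      rw [tr_step s par gen y h0 h1, Equiv.Perm.mul_apply, hs _ h2, ih _ (by omega) (by omega) x]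
      show _ = cond (Nat.beq y 0) x.val (force (trF G' par gen f (par y) x.val) (G' (gen y)))
      have h3 : Nat.beq y 0 = false := by
        cases y with
        | zero => omega
        | succ n => rfl
      rw [h3, force_eq]
      rfl

/-- The first tree. -/
noncomputable def t1 (y : ℕ) : Pm := tr (fun l => Gp tbl (4 + l)) P1 Q1 y
/-- The second tree. -/
noncomputable def t2 (y : ℕ) : Pm := tr (fun l => Gp tbl (8 + l)) P2 Q2 y

theorem t1_val {y : ℕ} (hy : y < 160) (x : Fin 315) : ((t1 y) x).val = t1E y x.val := by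
  refine trF_spec _ G1 P1 Q1 160 4 ?_ ?_ 159 y (by omega) hy x
  · intro l hl x
    exact Gp_val tbl _ (by omega) x
  · intro y hy h0
    obtain ⟨h1, h2, -⟩ := lev1.hTree y hy h0
    exact ⟨h1, h2⟩

theorem t2_val {y : ℕ} (hy : y < 12) (x : Fin 315) : ((t2 y) x).val = t2E y x.val := by
  refine trF_spec _ G2 P2 Q2 12 3 ?_ ?_ 11 y (by omega) hy x
  · intro l hl x
    exact Gp_val tbl _ (by omega) x
  · intro y hy h0
    obtain ⟨h1, h2, -⟩ := lev2.hTree y hy h0
    exact ⟨h1, h2⟩

theorem t2_mem {y : ℕ} (hy : y < 12) : t2 y ∈ K2 := (lev2.tr_apply y hy).2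

theorem t1_mem {y : ℕ} (hy : y < 160) : t1 y ∈ K1 := (lev1.tr_apply y hy).2

theorem K2_eq {h : Pm} (hh : h ∈ K2) : ∃ x, x < 12 ∧ h = t2 x := by
  obtain ⟨x, hx, h1⟩ := lev2.cover h hh
  rw [K3_eq, Subgroup.mem_bot, inv_mul_eq_one] at h1
  exact ⟨x, hx, h1.symm⟩

theorem K1_eq {h : Pm} (hh : h ∈ K1) : ∃ y x, y < 160 ∧ x < 12 ∧ h = t1 y * t2 x := by
  obtain ⟨y, hy, h1⟩ := lev1.cover h hh
  obtain ⟨x, hx, h2⟩ := K2_eq h1
  refine ⟨y, x, hy, hx, ?_⟩
  rw [inv_mul_eq_iff_eq_mul] at h2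
  exact h2

theorem t1_zero : t1 0 = 1 := tr_zero _ _ _
theorem t2_zero : t2 0 = 1 := tr_zero _ _ _

/-- The centralizer of the extraspecial group. -/
theorem cent_of_comm {c : Pm} (hc : c ∈ Pg) (hcomm : ∀ i, i < 5 → c * El (wd (2 + i)) = El (wd (2 + i)) * c) :
    c = 1 ∨ c = El (wd 6) := by
  have h0 : c bb0 = bb0 := by
    apply fixQ
    intro i hi
    have h1 := congrArg (fun f : Pm => f bb0) (hcomm i hi)
    simp only [Equiv.Perm.mul_apply] at h1
    rw [← h1, fix0_gen (by omega)]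
  obtain ⟨y, x, hy, hx, rfl⟩ := K1_eq (mem_K1_of_fix hc h0)
  have hval : ∀ q : Fin 315, ((t1 y * t2 x) q).val = t1E y (t2E x q.val) := by
    intro q
    rw [Equiv.Perm.mul_apply, t1_val hy, t2_val hx]
  have hfail : ∀ i, i < 4 → cfail y x (2 + i) = false := by
    intro i hi
    have h1 := congrArg (fun f : Pm => (f bb1).val) (hcomm i (by omega))
    simp only [Equiv.Perm.mul_apply] at h1
    have h2 := hval (El (wd (2 + i)) bb1)
    simp only [Equiv.Perm.mul_apply] at h2
    rw [h2, El_apply (ok_wd' (by omega)), El_apply (ok_wd' (by omega)), bb1_val] at h1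
    have h3 := hval bb1
    simp only [Equiv.Perm.mul_apply] at h3
    rw [h3, bb1_val] at h1
    simp only [cfail]
    rw [h1]
    simp
  have h1 := allB_spec _ _ _ (by norm_num) (allB_spec _ _ _ (by norm_num) cent_chk y hy) x hx
  simp only [Bool.or_eq_true, Bool.and_eq_true] at h1
  rcases h1 with h1 | h1 | h1 | h1 | h1 | h1
  · left
    rw [Nat.eq_of_beq_eq_true h1.1, Nat.eq_of_beq_eq_true h1.2, t1_zero, t2_zero, one_mul]
  · right
    have e1 := Nat.eq_of_beq_eq_true h1.1
    have e2 := Nat.eq_of_beq_eq_true h1.2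
    subst e1
    subst e2
    have h5 := z_chk
    simp only [Bool.and_eq_true] at h5
    obtain ⟨a0, a1, a2⟩ := h5
    refine eq_of_base hc (El_mem (ok_wd' (by norm_num))) ?_ ?_ ?_
    · apply Fin.ext
      rw [hval, El_apply (ok_wd' (by norm_num)), bb0_val]
      exact Nat.eq_of_beq_eq_true a0
    · apply Fin.ext
      rw [hval, El_apply (ok_wd' (by norm_num)), bb1_val]
      exact Nat.eq_of_beq_eq_true a1
    · apply Fin.ext
      rw [hval, El_apply (ok_wd' (by norm_num)), bb2_val]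
      exact Nat.eq_of_beq_eq_true a2
  · rw [hfail 0 (by norm_num)] at h1
    exact absurd h1 (by simp)
  · rw [hfail 1 (by norm_num)] at h1
    exact absurd h1 (by simp)
  · rw [hfail 2 (by norm_num)] at h1
    exact absurd h1 (by simp)
  · rw [hfail 3 (by norm_num)] at h1
    exact absurd h1 (by simp)

/-- The element of order three. -/
noncomputable def w₀ : Pm := El wW

theorem w_mem : w₀ ∈ Pg := El_mem ok_w

/-- The subgroups of `S₀` closed under fusion. -/
theorem closed_dichotomy (Tt : Subgroup Pm) (hT : Tt ≤ S₀)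
    (hcl : ∀ t ∈ Tt, ∀ g ∈ Pg, g * t * g⁻¹ ∈ S₀ → g * t * g⁻¹ ∈ Tt) : Tt = ⊥ ∨ Tt = S₀ := by
  by_cases hb : Tt = ⊥
  · exact Or.inl hb
  right
  have hP : IsPGroup 2 S₀ := IsPGroup.of_card card_S
  have hnorm : (Tt.subgroupOf S₀).Normal := by
    refine ⟨?_⟩
    rintro ⟨t, ht⟩ ht' ⟨g, hg⟩
    rw [Subgroup.mem_subgroupOf] at ht' ⊢
    exact hcl t ht' g (S_le_Pg hg) (S₀.mul_mem (S₀.mul_mem hg ht) (S₀.inv_mem hg))
  have hne : Tt.subgroupOf S₀ ≠ ⊥ := by
    intro h
    apply hb
    rw [eq_bot_iff]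
    intro x hx
    have h1 : (⟨x, hT hx⟩ : S₀) ∈ Tt.subgroupOf S₀ := by
      rw [Subgroup.mem_subgroupOf]
      exact hx
    rw [h, Subgroup.mem_bot] at h1
    rw [Subgroup.mem_bot]
    exact congrArg Subtype.val h1
  obtain ⟨⟨x, hxS⟩, hxT, hx1, hxc⟩ := Cfsg.Agent.Lib.PuigBasic.exists_mem_center_of_normal hP _ hne
  rw [Subgroup.mem_subgroupOf] at hxT
  have hcomm : ∀ i, i < 5 → x * El (wd (2 + i)) = El (wd (2 + i)) * x := by
    intro i hi
    have h1 := congrArg Subtype.val ((Subgroup.mem_center_iff.mp hxc) ⟨_, gen_memS (i := 2 + i) (by omega)⟩)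
    exact h1.symm
  have hzT : El (wd 6) ∈ Tt := by
    rcases cent_of_comm (S_le_Pg hxS) hcomm with h | h
    · exact absurd (Subtype.ext h) hx1
    · exact h ▸ hxT
  -- the program
  have hstep : ∀ (v y : Pm) (c : List ℕ), okW c = true → v ∈ Tt → y ∈ S₀ → El c * v = y * El c → y ∈ Tt := by
    intro v y c hc hv hy h
    have h1 : El c * v * (El c)⁻¹ = y := by rw [h]; group
    rw [← h1] at hy ⊢
    exact hcl v hv _ (El_mem hc) hy
  have hi : ∀ k, k < 4 → El (wd (2 + k)) ∈ Tt := by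
    intro k hk
    have hc : okW (ciW.getD k []) = true := allB_spec _ _ _ (by norm_num) ok_ci k hk
    refine hstep _ _ (ciW.getD k []) hc hzT (gen_memS (by omega)) ?_
    have h1 := El_eq_of_agree (okW_append (ok_wd' (by norm_num)) hc) (okW_append hc (ok_wd' (by omega)))
      (allB_spec _ _ _ (by norm_num) ci_chk k hk)
    rw [El_append, El_append] at h1
    exact h1
  have hx4 : El (wd 2) * El (wd 3) ∈ Tt := Tt.mul_mem (hi 0 (by norm_num)) (hi 1 (by norm_num))
  have ha : El (wd 0) ∈ Tt := by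
    refine hstep _ _ caW ok_ca hx4 (gen_memS (by norm_num)) ?_
    have h1 := El_eq_of_agree (okW_append (okW_append (ok_wd' (by norm_num)) (ok_wd' (by norm_num))) ok_ca)
      (okW_append ok_ca (ok_wd' (by norm_num))) ca_chk
    rw [El_append, El_append, El_append] at h1
    rw [← mul_assoc]
    exact h1
  have hb' : El (wd 1) ∈ Tt := by
    refine hstep _ _ cbW ok_cb hx4 (gen_memS (by norm_num)) ?_
    have h1 := El_eq_of_agree (okW_append (okW_append (ok_wd' (by norm_num)) (ok_wd' (by norm_num))) ok_cb)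
      (okW_append ok_cb (ok_wd' (by norm_num))) cb_chk
    rw [El_append, El_append, El_append] at h1
    rw [← mul_assoc]
    exact h1
  apply le_antisymm hT
  rw [S₀, Subgroup.closure_le]
  rintro _ ⟨i, hi', rfl⟩
  have hi'' : i < 7 := hi'
  show El (wd i) ∈ Tt
  interval_cases i
  · exact ha
  · exact hb'
  · exact hi 0 (by norm_num)
  · exact hi 1 (by norm_num)
  · exact hi 2 (by norm_num)
  · exact hi 3 (by norm_num)
  · exact hzT

theorem w_conj : ∀ s ∈ S₀, w₀ * s * w₀⁻¹ ∈ S₀ := by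
  have h1 : S₀ ≤ S₀.comap (MulAut.conj w₀).toMonoidHom := by
    rw [S₀, Subgroup.closure_le]
    rintro _ ⟨i, hi, rfl⟩
    have hi' : i < 7 := hi
    have h2 := allB_spec _ _ _ (by norm_num) wconj_chk i hi
    simp only [Bool.and_eq_true] at h2
    have h3 := El_eq_of_agree (okW_append ok_w (ok_nf _)) (okW_append (ok_wd' hi') ok_w) h2.2
    rw [El_append, El_append] at h3
    show w₀ * El (wd i) * w₀⁻¹ ∈ S₀
    have h4 : w₀ * El (wd i) * w₀⁻¹ = El (nfW (wcL.getD i 0)) := by
      rw [mul_inv_eq_iff_eq_mul]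
      exact h3.symm
    rw [h4]
    exact nf_memS _
  exact fun s hs => h1 hs

/-- The two `2`-elements. -/
theorem u_conj {uW : List ℕ} {uc : List ℕ} (hu : okW uW = true)
    (hc : allB 5 3 (fun i => and (Nat.beq ((uc.getD i 0) % 4) 0) (and (Nat.ble (Nat.succ (uc.getD i 0)) 128)
      (agreeB (uW ++ nfW (uc.getD i 0)) (wd (2 + i) ++ uW)))) = true) :
    ∀ r ∈ R₀, El uW * r * (El uW)⁻¹ ∈ R₀ := by
  have h1 : R₀ ≤ R₀.comap (MulAut.conj (El uW)).toMonoidHom := by
    rw [R₀, Subgroup.closure_le]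
    rintro _ ⟨i, hi, rfl⟩
    have hi' : i < 5 := hi
    have h2 := allB_spec _ _ _ (by norm_num) hc i hi
    simp only [Bool.and_eq_true] at h2
    have h3 := El_eq_of_agree (okW_append hu (ok_nf _)) (okW_append (ok_wd' (by omega)) hu) h2.2.2
    rw [El_append, El_append] at h3
    show El uW * El (wd (2 + i)) * (El uW)⁻¹ ∈ R₀
    have h4 : El uW * El (wd (2 + i)) * (El uW)⁻¹ = El (nfW (uc.getD i 0)) := by
      rw [mul_inv_eq_iff_eq_mul]
      exact h3.symm
    rw [h4]
    exact nf_memR (Nat.eq_of_beq_eq_true h2.1)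
  exact fun s hs => h1 hs

theorem u1_sq' : El u1W ^ 2 ^ 1 = 1 := by
  have h1 := El_eq_of_agree (okW_append ok_u1 ok_u1) okW_nil u1_sq
  rw [El_append, El_nil] at h1
  rw [pow_one, pow_two]
  exact h1

theorem u2_sq' : El u2W ^ 2 ^ 1 = 1 := by
  have h1 := El_eq_of_agree (okW_append ok_u2 ok_u2) okW_nil u2_sq
  rw [El_append, El_nil] at h1
  rw [pow_one, pow_two]
  exact h1

theorem w_eq : w₀ = El u1W * El u2W := by
  have h1 := El_eq_of_agree (okW_append ok_u2 ok_u1) ok_w uu_chk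
  rw [El_append] at h1
  exact h1.symm

theorem norm_closure {g : Pm} (hg : g ∈ Pg) (hn : ∀ s ∈ S₀, g * s * g⁻¹ ∈ S₀) :
    g ∈ Subgroup.closure ((S₀ : Set Pm) ∪ {w₀}) := by
  have hN' := Cfsg.Agent.Lib.FusionEmbed.mem_normalizer_of_conj S₀ g hn
  have hinv : ∀ s ∈ S₀, g⁻¹ * s * g ∈ S₀ := by
    intro s hs
    have h1 := (Subgroup.mem_normalizer_iff.mp hN' (g⁻¹ * s * g)).mpr
    apply h1
    have : g * (g⁻¹ * s * g) * g⁻¹ = s := by group
    rwa [this]
  have h0 : g bb0 = bb0 := by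
    apply fixQ
    intro i hi
    have h1 := S_fix0 (hinv _ (gen_memS (i := 2 + i) (by omega)))
    simp only [Equiv.Perm.mul_apply] at h1
    rw [Equiv.Perm.inv_eq_iff_eq] at h1
    exact h1.symm ▸ rfl
  -- the image of the base point
  have hE := allB_spec _ _ _ (by norm_num) et_chk (g bb1).val (g bb1).2
  rw [force_eq] at hE
  simp only [Bool.or_eq_true, Bool.and_eq_true] at hE
  rcases hE with ⟨he1, he2⟩ | ⟨he1, he2, he3⟩
  · have he : Et (g bb1).val < 128 := Nat.le_of_ble_eq_true he1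
    set e := Et (g bb1).val with hedef
    have hs : El (nfW e) bb1 = g bb1 := by
      apply Fin.ext
      rw [nf_val, bb1_val]
      exact Nat.eq_of_beq_eq_true he2
    set h := (El (nfW e))⁻¹ * g with hh
    have hhPg : h ∈ Pg := Pg.mul_mem (Pg.inv_mem (S_le_Pg (nf_memS e))) hg
    have hh0 : h bb0 = bb0 := by
      rw [hh, Equiv.Perm.mul_apply, h0, Equiv.Perm.inv_eq_iff_eq, S_fix0 (nf_memS e)]
    have hh1 : h bb1 = bb1 := by
      rw [hh, Equiv.Perm.mul_apply, Equiv.Perm.inv_eq_iff_eq, hs]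
    have hK2 : h ∈ K2 := mem_K2_of_fix (mem_K1_of_fix hhPg hh0) hh1
    obtain ⟨x, hx, hxe⟩ := K2_eq hK2
    have hgh : g = El (nfW e) * h := by rw [hh]; group
    have hSm : El (nfW e) ∈ Subgroup.closure ((S₀ : Set Pm) ∪ {w₀}) :=
      Subgroup.subset_closure (Or.inl (nf_memS e))
    have hwm : w₀ ∈ Subgroup.closure ((S₀ : Set Pm) ∪ {w₀}) := Subgroup.subset_closure (Or.inr rfl)
    have hchk := allB_spec _ _ _ (by norm_num) norm_chk x hx
    simp only [Bool.or_eq_true] at hchk
    have hpow := pow_chk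
    simp only [Bool.and_eq_true] at hpow
    obtain ⟨⟨a0, a1, a2⟩, b0, b1, b2⟩ := hpow
    have hWW : okW (wW ++ wW) = true := okW_append ok_w ok_w
    rcases hchk with h1 | h1 | h1 | h1
    · rw [Nat.eq_of_beq_eq_true h1] at hxe
      rw [hgh, hxe, t2_zero, mul_one]
      exact hSm
    · rw [Nat.eq_of_beq_eq_true h1] at hxe
      have h2 : h = w₀ := by
        refine eq_of_base hhPg w_mem ?_ ?_ ?_
        · apply Fin.ext
          rw [hxe, t2_val (by norm_num), w₀, El_apply ok_w, bb0_val]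
          exact Nat.eq_of_beq_eq_true a0
        · apply Fin.ext
          rw [hxe, t2_val (by norm_num), w₀, El_apply ok_w, bb1_val]
          exact Nat.eq_of_beq_eq_true a1
        · apply Fin.ext
          rw [hxe, t2_val (by norm_num), w₀, El_apply ok_w, bb2_val]
          exact Nat.eq_of_beq_eq_true a2
      rw [hgh, h2]
      exact Subgroup.mul_mem _ hSm hwm
    · rw [Nat.eq_of_beq_eq_true h1] at hxe
      have h2 : h = El (wW ++ wW) := by
        refine eq_of_base hhPg (El_mem hWW) ?_ ?_ ?_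
        · apply Fin.ext
          rw [hxe, t2_val (by norm_num), El_apply hWW, bb0_val]
          exact Nat.eq_of_beq_eq_true b0
        · apply Fin.ext
          rw [hxe, t2_val (by norm_num), El_apply hWW, bb1_val]
          exact Nat.eq_of_beq_eq_true b1
        · apply Fin.ext
          rw [hxe, t2_val (by norm_num), El_apply hWW, bb2_val]
          exact Nat.eq_of_beq_eq_true b2
      rw [hgh, h2, El_append]
      exact Subgroup.mul_mem _ hSm (Subgroup.mul_mem _ hwm hwm)
    · exfalso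
      -- the element does not normalize
      have hnh : h * El (wd 0) * h⁻¹ ∈ S₀ := by
        have h2 : h * El (wd 0) * h⁻¹ = (El (nfW e))⁻¹ * (g * El (wd 0) * g⁻¹) * El (nfW e) := by
          rw [hh]; group
        rw [h2]
        exact S₀.mul_mem (S₀.mul_mem (S₀.inv_mem (nf_memS e)) (hn _ (gen_memS (by norm_num)))) (nf_memS e)
      obtain ⟨e₁, he₁, hte⟩ := S_eq hnh
      have hrel : El (nfW e₁) * h = h * El (wd 0) := by
        rw [← hte]; group
      have hhv : ∀ q : Fin 315, (h q).val = t2E x q.val := by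
        intro q
        rw [hxe, t2_val hx]
      have hb1 := congrArg (fun f : Pm => (f bb1).val) hrel
      simp only [Equiv.Perm.mul_apply] at hb1
      rw [hh1, nf_val, bb1_val, hhv, El_apply (ok_wd' (by norm_num)), bb1_val] at hb1
      have hb2 := congrArg (fun f : Pm => (f bb2).val) hrel
      simp only [Equiv.Perm.mul_apply] at hb2
      rw [nf_val, hhv, hhv, El_apply (ok_wd' (by norm_num)), bb2_val] at hb2
      simp only [nfail] at h1
      rw [force_eq, ← hb1, Et_nf he₁] at h1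
      have hfalse : Nat.ble 128 e₁ = false := by
        rw [Bool.eq_false_iff]
        intro h3
        have := Nat.le_of_ble_eq_true h3
        omega
      rw [hfalse, hb2] at h1
      simp at h1
  · exfalso
    set e := Et (g bb1).val with hedef
    have he129 : 129 ≤ e := Nat.le_of_ble_eq_true he1
    have he256 : e < 256 := Nat.le_of_ble_eq_true he2
    have hfix : El (nfW (e - 128)) (g bb1) = g bb1 := by
      apply Fin.ext
      rw [nf_val]
      exact Nat.eq_of_beq_eq_true he3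
    have hx := hinv _ (nf_memS (e - 128))
    have hxfix : (g⁻¹ * El (nfW (e - 128)) * g) bb1 = bb1 := by
      simp only [Equiv.Perm.mul_apply]
      rw [hfix, Equiv.Perm.inv_eq_iff_eq]
    have h1 := stab_trivial hx hxfix
    have h2 : El (nfW (e - 128)) = 1 := by
      have : El (nfW (e - 128)) = g * (g⁻¹ * El (nfW (e - 128)) * g) * g⁻¹ := by group
      rw [this, h1]
      group
    have h3 : El (nfW (e - 128)) = El (nfW 0) := by
      rw [h2, nfW_zero]
      rfl
    have h4 := nf_inj (by omega) (by norm_num) h3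
    omega

/-- The main theorem. -/
theorem main {G : Type*} [Group G] [Finite G] (e : G ≃* Cfsg.Spor.J2) (S : Sylow 2 G) :
    (Cfsg.groupFusionSystem (S : Subgroup G)).IsSimple 2 := by
  let ι : G →* Pm := Pg.subtype.comp (j2Equiv.toMonoidHom.comp e.toMonoidHom)
  have hι : Function.Injective ι := by
    intro a b hab
    exact e.injective (j2Equiv.injective (Subtype.ext hab))
  have hrange : ι.range = Pg := by
    ext x
    constructor
    · rintro ⟨a, rfl⟩
      exact (j2Equiv (e a)).2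
    · intro hx
      refine ⟨e.symm (j2Equiv.symm ⟨x, hx⟩), ?_⟩
      show ((j2Equiv (e (e.symm (j2Equiv.symm ⟨x, hx⟩))) : Pg) : Pm) = x
      simp
  have hcardG : Nat.card G = 2 ^ 7 * 4725 := by
    rw [Nat.card_congr e.toEquiv, card_J2]
    norm_num
  refine Cfsg.Agent.Lib.FusionEmbed.isSimple_of_embedding 2 ι hι S₀ (hrange ▸ S_le_Pg) 7 4725 card_S hcardG
    (by norm_num) ?_ ?_ w₀ (hrange ▸ w_mem) w_conj R₀ R_le_S ?_ {El u1W, El u2W} ?_ ?_ ?_ ?_ S
  · intro hb
    have h1 := card_S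
    rw [hb] at h1
    simp at h1
  · rw [hrange]
    exact closed_dichotomy
  · rw [hrange]
    intro c hc hcomm
    have h1 : ∀ i, i < 5 → c * El (wd (2 + i)) = El (wd (2 + i)) * c :=
      fun i hi => hcomm _ (gen_memR hi)
    rcases cent_of_comm hc h1 with h | h
    · rw [h]
      exact R₀.one_mem
    · rw [h]
      exact gen_memR (i := 4) (by norm_num)
  · rw [hrange]
    rintro _ (rfl | rfl)
    · exact El_mem ok_u1
    · exact El_mem ok_u2
  · rintro _ (rfl | rfl)
    · exact ⟨u_conj ok_u1 u1_chk, 1, u1_sq'⟩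
    · exact ⟨u_conj ok_u2 u2_chk, 1, u2_sq'⟩
  · rw [w_eq]
    exact Subgroup.mul_mem _ (Subgroup.subset_closure (Or.inl rfl)) (Subgroup.subset_closure (Or.inr rfl))
  · rw [hrange]
    exact fun g hg hn => norm_closure hg hn

end Cfsg.Agent.Lib.J2Fus
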