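import Cfsg.Agent.Lib.XPrimGen
import Cfsg.Agent.Lib.J2G24Tab
import Cfsg.Agent.Lib.J2Iso

/-!
# A group of the order of `G₂(4)` acting on `416` sets

The abstract part: a group of order `251596800` acting on a type, with `416` subsets in one orbit,
two elements permuting them by given tables. Then the stabilizer of one of the sets is isomorphic
to `J₂` and maximal, and it has maximal intersections with its conjugates.
-/

set_option autoImplicit false
set_option maxRecDepth 100000
set_option linter.unusedSectionVars false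
set_option linter.style.haveILetI false
set_option linter.deprecated false

namespace Cfsg.Agent.Lib.J2G24Abs

open Equiv Cfsg.Agent.Lib.XPrimGen Cfsg.Agent.Lib.J2G24Tab Cfsg.Agent.Lib.ProgBits
  Cfsg.Agent.Lib.PermChain Cfsg.Agent.Lib.ProgChain

/-- The conclusion. -/
def Goal (G : Type*) [Group G] : Prop :=
  ∃ H : Subgroup G, IsCoatom H ∧ Cfsg.Spor.IsoJ2 H ∧
    ∀ x : G, x ∉ H → IsCoatom ((H ⊓ H.map (MulAut.conj x).toMonoidHom).subgroupOf H)

/-- Application of a word. -/
def walk : List ℕ → ℕ → ℕ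
  | [], i => i
  | l :: w, i => cond (Nat.beq l 0) (aT (walk w i)) (bT (walk w i))

/-- The test on a tree. -/
def treeChk (nL : ℕ) (mv : ℕ → ℕ → ℕ) (inO : ℕ → Bool) (col root par lt rk : ℕ → ℕ) (p : ℕ) : Bool :=
  !(inO p) || Nat.beq p (root (col p)) ||
    (Nat.blt (par p) 416 && inO (par p) && Nat.beq (col (par p)) (col p) &&
      Nat.blt (rk (par p)) (rk p) && Nat.blt (lt p) nL && Nat.beq (mv (lt p) (par p)) p)

/-! ### The checks -/

theorem aT_lt : ∀ i, i < 416 → aT i < 416 := by decide +kernel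
theorem bT_lt : ∀ i, i < 416 → bT i < 416 := by decide +kernel
theorem labT_lt : ∀ i, i < 100 → labT i < 416 := by decide +kernel
theorem lab_inj : ∀ i, i < 100 → ∀ j, j < 100 → labT i = labT j → i = j := by decide +kernel
theorem i0_lt : i0 < 416 := by decide +kernel
theorem y1_lt : y1 < 416 := by decide +kernel
theorem y2_lt : y2 < 416 := by decide +kernel
theorem a_fix : aT i0 = i0 := by decide +kernel
theorem b_fix : bT i0 = i0 := by decide +kernel
theorem lab_a : ∀ x, x < 100 → aT (labT x) = labT (g0T x) := by decide +kernel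
theorem lab_b : ∀ x, x < 100 → bT (labT x) = labT (g1T x) := by decide +kernel
theorem g0_chk : ∀ x, x < 100 → ptChk J2PTab.pr [0] (g0T x) x = true := by decide +kernel
theorem g1_chk : ∀ x, x < 100 → ptChk J2PTab.pr [1] (g1T x) x = true := by decide +kernel
theorem g0T_lt : ∀ x, x < 100 → g0T x < 100 := by decide +kernel
theorem g1T_lt : ∀ x, x < 100 → g1T x < 100 := by decide +kernel
theorem col0_a : ∀ i, i < 416 → col0T (aT i) = col0T i := by decide +kernel
theorem col0_b : ∀ i, i < 416 → col0T (bT i) = col0T i := by decide +kernel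
theorem col0_lt : ∀ i, i < 416 → col0T i < 3 := by decide +kernel
theorem col0_zero : ∀ i, i < 416 → col0T i = 0 → i = i0 := by decide +kernel
theorem col0_i0 : col0T i0 = 0 := by decide +kernel
theorem col0_y1 : col0T y1 = 1 := by decide +kernel
theorem col0_y2 : col0T y2 = 2 := by decide +kernel
theorem root0_1 : root0 1 = y1 := by decide +kernel
theorem root0_2 : root0 2 = y2 := by decide +kernel
theorem tree0 : ∀ p, p < 416 →
    treeChk 2 (fun l i => walk (W0 l) i) (fun _ => true) col0T root0 hpar hlt hrk p = true := by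
  decide +kernel
theorem tree1 : ∀ p, p < 416 →
    treeChk 2 (fun l i => walk (W1 l) i) (fun i => Nat.beq (col0T i) 1) col1T root1 par1 lt1 rk1 p = true := by
  decide +kernel
theorem tree2 : ∀ p, p < 416 →
    treeChk 3 (fun l i => walk (W2 l) i) (fun i => Nat.beq (col0T i) 2) col2T root2 par2 lt2 rk2 p = true := by
  decide +kernel
theorem W0_fix : ∀ l, l < 2 → walk (W0 l) i0 = i0 := by decide +kernel
theorem W1_fix : ∀ l, l < 2 → walk (W1 l) y1 = y1 := by decide +kernel
theorem W2_fix : ∀ l, l < 3 → walk (W2 l) y2 = y2 := by decide +kernel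
theorem col1_y : col1T y1 = 0 := by decide +kernel
theorem col2_y : col2T y2 = 0 := by decide +kernel
theorem col1_lt : ∀ i, i < 416 → col0T i = 1 → col1T i < 3 := by decide +kernel
theorem col2_lt : ∀ i, i < 416 → col0T i = 2 → col2T i < 6 := by decide +kernel

/-- The orbits. -/
def O0 : Finset (Fin 416) := Finset.univ
def Oc (c : ℕ) : Finset (Fin 416) := Finset.univ.filter fun p => col0T p.val = c

theorem O0_card : O0.card = 416 := by decide +kernel
theorem O1_card : (Oc 1).card = 100 := by decide +kernel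
theorem O2_card : (Oc 2).card = 315 := by decide +kernel
theorem sz0_chk : ∀ c, c < 3 → (O0.filter fun p => col0T p.val = c).card = sz0 c := by decide +kernel
theorem sz1_chk : ∀ c, c < 3 → ((Oc 1).filter fun p => col1T p.val = c).card = sz1 c := by decide +kernel
theorem sz2_chk : ∀ c, c < 6 → ((Oc 2).filter fun p => col2T p.val = c).card = sz2 c := by decide +kernel
theorem sums0 : ∀ S ∈ (Finset.range 3).powerset, 0 ∈ S →
    (∑ c ∈ S, sz0 c) ∣ 416 → (∑ c ∈ S, sz0 c) = 1 ∨ (∑ c ∈ S, sz0 c) = 416 := by decide +kernel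
theorem sums1 : ∀ S ∈ (Finset.range 3).powerset, 0 ∈ S →
    (∑ c ∈ S, sz1 c) ∣ 100 → (∑ c ∈ S, sz1 c) = 1 ∨ (∑ c ∈ S, sz1 c) = 100 := by decide +kernel
theorem sums2 : ∀ S ∈ (Finset.range 6).powerset, 0 ∈ S →
    (∑ c ∈ S, sz2 c) ∣ 315 → (∑ c ∈ S, sz2 c) = 1 ∨ (∑ c ∈ S, sz2 c) = 315 := by decide +kernel

/-! ### Words and trees -/

section words

variable {Γ : Type*} [Group Γ]

/-- The element of a word. -/
def wEl (a b : Γ) : List ℕ → Γ
  | [] => 1
  | l :: w => cond (Nat.beq l 0) a b * wEl a b w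

lemma wEl_apply (ψ : Γ →* Perm (Fin 416)) (a b : Γ) (ha : ∀ i : Fin 416, (ψ a i).val = aT i.val)
    (hb : ∀ i : Fin 416, (ψ b i).val = bT i.val) (w : List ℕ) (i : Fin 416) :
    (ψ (wEl a b w) i).val = walk w i.val := by
  induction w with
  | nil => simp [wEl, walk]
  | cons l w ih =>
    simp only [wEl, walk, map_mul, Perm.mul_apply]
    cases h : Nat.beq l 0
    · simp only [cond_false]
      rw [hb, ih]
    · simp only [cond_true]
      rw [ha, ih]

theorem reach_of_tree (ψ : Γ →* Perm (Fin 416)) (St : Subgroup Γ) (nL : ℕ) (mv : ℕ → ℕ → ℕ)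
    (hmv : ∀ l, l < nL → ∃ u ∈ St, ∀ i : Fin 416, (ψ u i).val = mv l i.val)
    (inO : ℕ → Bool) (col root par lt rk : ℕ → ℕ)
    (ht : ∀ p, p < 416 → treeChk nL mv inO col root par lt rk p = true) :
    ∀ p, p < 416 → inO p = true →
      ∃ u ∈ St, ∃ r : Fin 416, r.val = root (col p) ∧ (ψ u r).val = p := by
  apply tree_ind (P := fun p => inO p = true →
      ∃ u ∈ St, ∃ r : Fin 416, r.val = root (col p) ∧ (ψ u r).val = p) rk par
  intro p hp
  have h := ht p hp
  simp only [treeChk, Bool.or_eq_true, Bool.and_eq_true, Bool.not_eq_true'] at h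
  rcases h with (h | h) | h
  · left
    intro h'
    rw [h] at h'
    cases h'
  · left
    intro _
    have h1 : p = root (col p) := Nat.eq_of_beq_eq_true h
    exact ⟨1, St.one_mem, ⟨p, hp⟩, h1, by simp⟩
  · obtain ⟨⟨⟨⟨⟨h1, h2⟩, h3⟩, h4⟩, h5⟩, h6⟩ := h
    have h1' : par p < 416 := Nat.le_of_ble_eq_true h1
    refine Or.inr ⟨h1', Nat.le_of_ble_eq_true h4, fun hP _ => ?_⟩
    obtain ⟨u, hu, r, hr1, hr2⟩ := hP h2
    obtain ⟨m, hm, hm2⟩ := hmv _ (Nat.le_of_ble_eq_true h5)
    refine ⟨m * u, St.mul_mem hm hu, r, ?_, ?_⟩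
    · rw [hr1, Nat.eq_of_beq_eq_true h3]
    · rw [map_mul, Perm.mul_apply, hm2, hr2]
      exact Nat.eq_of_beq_eq_true h6

theorem conn_of_reach {ψ : Γ →* Perm (Fin 416)} {St : Subgroup Γ} {inO : ℕ → Bool}
    {col root : ℕ → ℕ}
    (h : ∀ p, p < 416 → inO p = true →
      ∃ u ∈ St, ∃ r : Fin 416, r.val = root (col p) ∧ (ψ u r).val = p)
    (p q : Fin 416) (hp : inO p.val = true) (hq : inO q.val = true) (hc : col p.val = col q.val) :
    ∃ u ∈ St, ψ u p = q := by
  obtain ⟨u1, hu1, r1, h1, h2⟩ := h p.val p.2 hp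
  obtain ⟨u2, hu2, r2, h3, h4⟩ := h q.val q.2 hq
  have hr : r1 = r2 := Fin.ext (by rw [h1, h3, hc])
  subst hr
  have hp' : ψ u1 r1 = p := Fin.ext h2
  have hq' : ψ u2 r1 = q := Fin.ext h4
  refine ⟨u2 * u1⁻¹, St.mul_mem hu2 (St.inv_mem hu1), ?_⟩
  rw [map_mul, map_inv, Perm.mul_apply, ← hp', ← hq']
  simp

/-- One stabilizer is maximal, from the tables. -/
theorem coatom_level [Finite Γ] (ψ : Γ →* Perm (Fin 416)) (a b : Γ)
    (ha : ∀ i : Fin 416, (ψ a i).val = aT i.val) (hb : ∀ i : Fin 416, (ψ b i).val = bT i.val)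
    (y : Fin 416) (O : Finset (Fin 416)) (hO : ∀ g, ψ g y ∈ O) (hO' : ∀ z ∈ O, ∃ g, ψ g y = z)
    (nL : ℕ) (W : ℕ → List ℕ) (hW : ∀ l, l < nL → walk (W l) y.val = y.val)
    (inO : ℕ → Bool) (col root par lt rk : ℕ → ℕ) (hinO : ∀ p : Fin 416, p ∈ O ↔ inO p.val = true)
    (ht : ∀ p, p < 416 → treeChk nL (fun l i => walk (W l) i) inO col root par lt rk p = true)
    (r : ℕ) (sz : ℕ → ℕ) (hcol : ∀ p ∈ O, col p.val < r) (hy : col y.val = 0)
    (hsz : ∀ c, c < r → (O.filter fun p => col p.val = c).card = sz c) (n : ℕ) (hn : O.card = n)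
    (hsums : ∀ S ∈ (Finset.range r).powerset, 0 ∈ S →
      (∑ c ∈ S, sz c) ∣ n → (∑ c ∈ S, sz c) = 1 ∨ (∑ c ∈ S, sz c) = n) (hne : 1 < n) :
    IsCoatom (stb ψ y) := by
  subst hn
  refine coatom_stb ψ y O hO hO' r (fun p => col p.val) sz hcol hy hsz hsums ?_ hne
  have hreach := reach_of_tree ψ (stb ψ y) nL (fun l i => walk (W l) i) (fun l hl => by
    refine ⟨wEl a b (W l), ?_, fun i => wEl_apply ψ a b ha hb _ i⟩
    rw [mem_stb]
    apply Fin.ext
    rw [wEl_apply ψ a b ha hb, hW l hl]) inO col root par lt rk ht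
  intro p hp q hq hc
  obtain ⟨u, hu, h⟩ := conn_of_reach hreach p q ((hinO p).1 hp) ((hinO q).1 hq) hc
  exact ⟨u, hu, h⟩

end words

/-! ### The main theorem -/

/-- the labels on the `100` points -/
def labF (x : Fin 100) : Fin 416 := ⟨labT x.val, labT_lt x.val x.2⟩
def aF (i : Fin 416) : Fin 416 := ⟨aT i.val, aT_lt i.val i.2⟩
def bF (i : Fin 416) : Fin 416 := ⟨bT i.val, bT_lt i.val i.2⟩
def i0F : Fin 416 := ⟨i0, i0_lt⟩
def y1F : Fin 416 := ⟨y1, y1_lt⟩
def y2F : Fin 416 := ⟨y2, y2_lt⟩

lemma g_val0 (x : Fin 100) : (J2PMain.g 0 x).val = g0T x.val := by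
  have h := J2PMain.ctx.prodW_pt (w := [0]) (p := g0T x.val) (b := x) (g0_chk x.val x.2)
  simpa [prodW] using h

lemma g_val1 (x : Fin 100) : (J2PMain.g 1 x).val = g1T x.val := by
  have h := J2PMain.ctx.prodW_pt (w := [1]) (p := g1T x.val) (b := x) (g1_chk x.val x.2)
  simpa [prodW] using h

lemma closure_g : Subgroup.closure {J2PMain.g 0, J2PMain.g 1} = grp J2PMain.g 0 2 := by
  unfold grp genOf
  congr 1
  ext x
  simp only [Set.mem_insert_iff, Set.mem_singleton_iff, Set.mem_setOf_eq]
  constructor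
  · rintro (rfl | rfl)
    · exact ⟨0, by simp, rfl⟩
    · exact ⟨1, by simp [List.mem_range'_1], rfl⟩
  · rintro ⟨e, he, rfl⟩
    have h := List.mem_range'_1.mp he
    have h3 : e = 0 ∨ e = 1 := by omega
    rcases h3 with rfl | rfl
    · exact Or.inl rfl
    · exact Or.inr rfl

theorem abs_main {G Y : Type*} [Group G] (hG : Nat.card G = 251596800) (φ : G →* Perm Y)
    (B : Fin 416 → Set Y) (hB : Function.Injective B) (htree : ∀ i, ∃ g, φ g '' B i0F = B i)
    (a b : G) (ha : ∀ i, φ a '' B i = B (aF i)) (hb : ∀ i, φ b '' B i = B (bF i)) : Goal G := by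
  classical
  haveI : Finite G := Nat.finite_of_card_ne_zero (by rw [hG]; norm_num)
  have haF : aF i0F = i0F := Fin.ext a_fix
  have hbF : bF i0F = i0F := Fin.ext b_fix
  set K : Subgroup G := Subgroup.closure {a, b} with hK
  -- the subgroup stabilizes the set
  have hK0 : ∀ k ∈ K, φ k '' B i0F = B i0F := by
    letI := setAct φ
    have hle : K ≤ MulAction.stabilizer G (B i0F) := by
      rw [hK, Subgroup.closure_le]
      rintro x (rfl | rfl)
      · show φ x '' B i0F = B i0F
        rw [ha, haF]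
      · show φ x '' B i0F = B i0F
        rw [hb, hbF]
    exact fun k hk => hle hk
  -- comparison with the group on `100` points
  have hlab : Function.Injective (fun x => B (labF x)) := by
    intro x y hxy
    have h1 := congrArg Fin.val (hB hxy)
    exact Fin.ext (lab_inj x.val x.2 y.val y.2 h1)
  have hcmp := compare φ (MonoidHom.id (Perm (Fin 100))) (fun x => B (labF x))
    (fun _ _ h => h) hlab a b (J2PMain.g 0) (J2PMain.g 1)
    (fun x => by
      rw [ha]
      congr 1
      apply Fin.ext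
      show aT (labT x.val) = labT (J2PMain.g 0 x).val
      rw [g_val0, lab_a x.val x.2])
    (fun x => by
      rw [hb]
      congr 1
      apply Fin.ext
      show bT (labT x.val) = labT (J2PMain.g 1 x).val
      rw [g_val1, lab_b x.val x.2])
  rw [closure_g, J2PMain.cardH0] at hcmp
  have hKc : 604800 ≤ Nat.card K := hcmp.1
  -- the permutation action
  have hinv := orbit_closed φ B hB i0F htree K hK0 (by rw [hG]; omega) (by norm_num)
  obtain ⟨π, hπ⟩ := exists_hom φ B hB hinv
  have hπa : ∀ i : Fin 416, (π a i).val = aT i.val := by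
    intro i
    have h := hB ((hπ a i).symm.trans (ha i))
    exact congrArg Fin.val h
  have hπb : ∀ i : Fin 416, (π b i).val = bT i.val := by
    intro i
    have h := hB ((hπ b i).symm.trans (hb i))
    exact congrArg Fin.val h
  have htrans : ∀ i, ∃ g, π g i0F = i := by
    intro i
    obtain ⟨g, hg⟩ := htree i
    exact ⟨g, hB ((hπ g i0F).symm.trans hg)⟩
  set H : Subgroup G := stb π i0F with hH
  have hidx : H.index = 416 := by
    rw [← Subgroup.relIndex_top_right]
    have := relIndex_stb π i0F ⊤ Finset.univ (fun k _ => Finset.mem_univ _) (fun z _ => by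
      obtain ⟨g, rfl⟩ := htrans z
      exact ⟨g, trivial, rfl⟩)
    simpa using this
  have hHc : Nat.card H = 604800 := by
    have h := Subgroup.card_mul_index H
    rw [hidx, hG] at h
    omega
  have hKH : K ≤ H := by
    rw [hK, Subgroup.closure_le]
    rintro x (rfl | rfl)
    · exact Fin.ext ((hπa i0F).trans a_fix)
    · exact Fin.ext ((hπb i0F).trans b_fix)
  have hKeq : K = H := Subgroup.eq_of_le_of_card_ge hKH (by rw [hHc]; exact hKc)
  -- the invariance of the orbits
  have hinv0 : ∀ g ∈ K, ∀ i : Fin 416, col0T (π g i).val = col0T i.val := by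
    intro g hg
    induction hg using Subgroup.closure_induction with
    | mem x hx =>
      intro i
      rcases hx with rfl | rfl
      · rw [hπa, col0_a i.val i.2]
      · rw [hπb, col0_b i.val i.2]
    | one => simp
    | mul x y _ _ hx hy =>
      intro i
      rw [map_mul, Perm.mul_apply, hx, hy]
    | inv x _ hx =>
      intro i
      have h := hx ((π x)⁻¹ i)
      rw [map_inv]
      rw [← h]
      simp
  have hreach0 := reach_of_tree π H 2 (fun l i => walk (W0 l) i) (fun l hl => by
    have hl' : l = 0 ∨ l = 1 := by omega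
    rcases hl' with rfl | rfl
    · exact ⟨a, hKH (Subgroup.subset_closure (by simp)), fun i => hπa i⟩
    · exact ⟨b, hKH (Subgroup.subset_closure (by simp)), fun i => hπb i⟩)
    (fun _ => true) col0T root0 hpar hlt hrk tree0
  refine ⟨H, ?_, ?_, ?_⟩
  · -- maximality in the whole group
    refine coatom_level π a b hπa hπb i0F O0 (fun _ => Finset.mem_univ _) (fun z _ => htrans z) 2 W0
      W0_fix (fun _ => true) col0T root0 hpar hlt hrk (fun p => by simp [O0]) tree0 3 sz0
      (fun p _ => col0_lt p.val p.2) col0_i0 sz0_chk 416 O0_card sums0 (by norm_num)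
  · -- the isomorphism type
    obtain ⟨e⟩ := hcmp.2 (by
      show Nat.card K ≤ 604800
      rw [hKeq, hHc])
    exact ⟨((MulEquiv.subgroupCongr hKeq).symm.trans e).trans J2Iso.j2EquivG.symm⟩
  · -- the intersections
    set ψ : H →* Perm (Fin 416) := π.comp H.subtype with hψ
    have ha' : a ∈ H := hKH (Subgroup.subset_closure (by simp))
    have hb' : b ∈ H := hKH (Subgroup.subset_closure (by simp))
    have hψa : ∀ i : Fin 416, (ψ ⟨a, ha'⟩ i).val = aT i.val := hπa
    have hψb : ∀ i : Fin 416, (ψ ⟨b, hb'⟩ i).val = bT i.val := hπb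
    have hOc : ∀ (c : ℕ) (y : Fin 416), col0T y.val = c → ∀ g : H, ψ g y ∈ Oc c := by
      intro c y hy g
      simp only [Oc, Finset.mem_filter, Finset.mem_univ, true_and]
      rw [← hy]
      exact hinv0 g.1 (by rw [hKeq]; exact g.2) y
    have hOc' : ∀ (c : ℕ) (y : Fin 416), y.val = root0 c → col0T y.val = c →
        ∀ z ∈ Oc c, ∃ g : H, ψ g y = z := by
      intro c y hy hc z hz
      simp only [Oc, Finset.mem_filter, Finset.mem_univ, true_and] at hz
      obtain ⟨u, hu, r, hr1, hr2⟩ := hreach0 z.val z.2 rfl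
      rw [hz] at hr1
      have : r = y := Fin.ext (by rw [hr1, hy])
      subst this
      exact ⟨⟨u, hu⟩, Fin.ext hr2⟩
    have hc1 : IsCoatom (stb ψ y1F) := by
      refine coatom_level ψ ⟨a, ha'⟩ ⟨b, hb'⟩ hψa hψb y1F (Oc 1) (hOc 1 y1F col0_y1)
        (hOc' 1 y1F root0_1.symm col0_y1) 2 W1 W1_fix (fun i => Nat.beq (col0T i) 1) col1T root1 par1
        lt1 rk1 (fun p => ?_) tree1 3 sz1 (fun p hp => ?_) col1_y sz1_chk 100 O1_card sums1 (by norm_num)
      · simp [Oc, Nat.beq_eq]
      · exact col1_lt p.val p.2 (Finset.mem_filter.mp hp).2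
    have hc2 : IsCoatom (stb ψ y2F) := by
      refine coatom_level ψ ⟨a, ha'⟩ ⟨b, hb'⟩ hψa hψb y2F (Oc 2) (hOc 2 y2F col0_y2)
        (hOc' 2 y2F root0_2.symm col0_y2) 3 W2 W2_fix (fun i => Nat.beq (col0T i) 2) col2T root2 par2
        lt2 rk2 (fun p => ?_) tree2 6 sz2 (fun p hp => ?_) col2_y sz2_chk 315 O2_card sums2 (by norm_num)
      · simp [Oc, Nat.beq_eq]
      · exact col2_lt p.val p.2 (Finset.mem_filter.mp hp).2
    intro x hx
    set y : Fin 416 := π x i0F with hy
    have hy0 : col0T y.val ≠ 0 := by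
      intro h
      apply hx
      show π x i0F = i0F
      exact Fin.ext (col0_zero y.val y.2 h)
    have hyc : IsCoatom (stb ψ y) := by
      obtain ⟨u, hu, r, hr1, hr2⟩ := hreach0 y.val y.2 rfl
      have hy' : y = ψ ⟨u, hu⟩ r := (Fin.ext hr2).symm
      rw [hy']
      apply coatom_stb_smul
      have hlt := col0_lt y.val y.2
      have h12 : col0T y.val = 1 ∨ col0T y.val = 2 := by omega
      rcases h12 with h | h
      · rw [h, root0_1] at hr1
        have : r = y1F := Fin.ext hr1
        rw [this]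
        exact hc1
      · rw [h, root0_2] at hr1
        have : r = y2F := Fin.ext hr1
        rw [this]
        exact hc2
    have heq : (H ⊓ H.map (MulAut.conj x).toMonoidHom).subgroupOf H = stb ψ y := by
      ext h
      rw [Subgroup.mem_subgroupOf, Subgroup.mem_inf, mem_stb]
      show (h.1 ∈ H ∧ h.1 ∈ H.map (MulAut.conj x).toMonoidHom) ↔ π h.1 (π x i0F) = π x i0F
      constructor
      · rintro ⟨_, k, hk, hkx⟩
        have hk' : π k i0F = i0F := hk
        have : h.1 = x * k * x⁻¹ := hkx.symm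
        rw [this, map_mul, map_mul, map_inv, Perm.mul_apply, Perm.mul_apply]
        simp [hk']
      · intro h1
        refine ⟨h.2, x⁻¹ * h.1 * x, ?_, by simp [mul_assoc]⟩
        show π (x⁻¹ * h.1 * x) i0F = i0F
        rw [map_mul, map_mul, map_inv, Perm.mul_apply, Perm.mul_apply, h1]
        simp
    rw [heq]
    exact hyc

end Cfsg.Agent.Lib.J2G24Abs
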