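import Cfsg.Agent.Lib.J2G24Abs
import Cfsg.Agent.Lib.J2G24Mask
import Cfsg.Agent.Lib.G24Act
import Cfsg.Agent.Lib.ChevTransfer
import Cfsg.Agent.S1059

/-!
# The `416` sets of points of the six-dimensional module of `G₂(4)`

Six elements of `G₂(4)`, given as words in root elements, permute the points of the six-dimensional
module as given by tables. One of the sets of points is stabilized by two words in them, which
give the generators of `J₂` on `100` of the sets.
-/

set_option autoImplicit false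
set_option maxRecDepth 100000
set_option linter.unusedSectionVars false
set_option linter.deprecated false
set_option exponentiation.threshold 2000

namespace Cfsg.Agent.Lib.J2G24Mod

open Cfsg Cfsg.Lie Matrix Equiv
open Cfsg.Agent.Lib.F4K Cfsg.Agent.Lib.G24Data Cfsg.Agent.Lib.ZornAlg Cfsg.Agent.Lib.G24Rel
  Cfsg.Agent.Lib.G24Act Cfsg.Agent.Lib.ChainCert Cfsg.Agent.Lib.J2G24Tab Cfsg.Agent.Lib.J2G24Mask
  Cfsg.Agent.Lib.J2G24Abs
open scoped MatrixGroups

/-! ### Points -/

/-- Indices for the coordinates. -/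
abbrev z0 : Fin 6 := ⟨0, by decide⟩
abbrev z1 : Fin 6 := ⟨1, by decide⟩
abbrev z2 : Fin 6 := ⟨2, by decide⟩
abbrev z3 : Fin 6 := ⟨3, by decide⟩
abbrev z4 : Fin 6 := ⟨4, by decide⟩
abbrev z5 : Fin 6 := ⟨5, by decide⟩

/-- The code of a vector. -/
def enc (v : V6) : ℕ :=
  Nat.add (v z0).1 (Nat.add (Nat.mul 4 (v z1).1) (Nat.add (Nat.mul 16 (v z2).1)
    (Nat.add (Nat.mul 64 (v z3).1) (Nat.add (Nat.mul 256 (v z4).1) (Nat.mul 1024 (v z5).1)))))

/-- The point of a vector. -/
def pt (v : V6) : ℕ := look 11 2047 ptTab (enc v)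

/-- The vector with a code. -/
def dec (n : ℕ) : V6 := fun i => c4 (Nat.shiftRight n (Nat.mul 2 i.1))

/-- A vector of a point. -/
def repV (p : ℕ) : V6 := dec (look 12 4095 repTab p)

/-- The highest coordinate of a vector. -/
def topC (n : ℕ) : K4 :=
  cond (Nat.ble 1024 n) (c4 (Nat.shiftRight n 10)) (cond (Nat.ble 256 n) (c4 (Nat.shiftRight n 8))
    (cond (Nat.ble 64 n) (c4 (Nat.shiftRight n 6)) (cond (Nat.ble 16 n) (c4 (Nat.shiftRight n 4))
      (cond (Nat.ble 4 n) (c4 (Nat.shiftRight n 2)) (c4 n)))))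

/-- The scalar multiple in terms of the basic operation. -/
def scV (s : K4) (v : V6) : V6 := fun i => K4.mul s (v i)

def rep_ok (p : ℕ) : Bool := Nat.beq (pt (repV p)) p

def sc_ok (n : ℕ) : Bool :=
  Nat.beq n 0 || (Nat.blt (pt (dec n)) 1365 && Nat.blt 0 (topC n).1 &&
    Nat.beq (enc (scV (topC n) (repV (pt (dec n))))) n)

def pt_ok (n : ℕ) : Bool :=
  Nat.beq (pt (scV (c4 1) (dec n))) (pt (dec n)) && Nat.beq (pt (scV (c4 2) (dec n))) (pt (dec n)) &&
    Nat.beq (pt (scV (c4 3) (dec n))) (pt (dec n))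

theorem rep_all : allR (guard rep_ok 1365) 11 0 = true := by decide +kernel
theorem sc_all : allR (guard sc_ok 4096) 12 0 = true := by decide +kernel
theorem pt_all : allR (guard pt_ok 4096) 12 0 = true := by decide +kernel

theorem rep_pt (p : ℕ) (hp : p < 1365) : pt (repV p) = p :=
  Nat.eq_of_beq_eq_true (of_guard (by norm_num) rep_all p hp)

lemma c4_val (n : ℕ) : (c4 n).1 = n % 4 := rfl

lemma K4_lt (a : K4) : a.1 < 4 := a.2

lemma enc_lt (v : V6) : enc v < 4096 := by
  have h0 := K4_lt (v z0)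
  have h1 := K4_lt (v z1)
  have h2 := K4_lt (v z2)
  have h3 := K4_lt (v z3)
  have h4 := K4_lt (v z4)
  have h5 := K4_lt (v z5)
  show (v z0).1 + (4 * (v z1).1 + (16 * (v z2).1 + (64 * (v z3).1 + (256 * (v z4).1 + 1024 * (v z5).1)))) < 4096
  omega

lemma dec_enc (v : V6) : dec (enc v) = v := by
  have h0 := K4_lt (v z0)
  have h1 := K4_lt (v z1)
  have h2 := K4_lt (v z2)
  have h3 := K4_lt (v z3)
  have h4 := K4_lt (v z4)
  have h5 := K4_lt (v z5)
  have hE : enc v = (v z0).1 + (4 * (v z1).1 + (16 * (v z2).1 + (64 * (v z3).1 + (256 * (v z4).1 + 1024 * (v z5).1)))) := rfl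
  funext i
  apply Fin.ext
  show (Nat.shiftRight (enc v) (Nat.mul 2 i.1)) % 4 = (v i).1
  have hs : ∀ m n : ℕ, Nat.shiftRight m n = m / 2 ^ n := fun m n => Nat.shiftRight_eq_div_pow m n
  rw [hs, hE]
  fin_cases i
  · show _ / 2 ^ 0 % 4 = (v z0).1
    norm_num
    omega
  · show _ / 2 ^ 2 % 4 = (v z1).1
    norm_num
    omega
  · show _ / 2 ^ 4 % 4 = (v z2).1
    norm_num
    omega
  · show _ / 2 ^ 6 % 4 = (v z3).1
    norm_num
    omega
  · show _ / 2 ^ 8 % 4 = (v z4).1
    norm_num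
    omega
  · show _ / 2 ^ 10 % 4 = (v z5).1
    norm_num
    omega

lemma dec_zero : dec 0 = 0 := by
  funext i
  apply Fin.ext
  show Nat.shiftRight 0 (Nat.mul 2 i.1) % 4 = 0
  simp

lemma enc_inj {v w : V6} (h : enc v = enc w) : v = w := by
  rw [← dec_enc v, ← dec_enc w, h]

lemma enc_ne {v : V6} (hv : v ≠ 0) : enc v ≠ 0 := by
  intro h
  apply hv
  rw [← dec_enc v, h, dec_zero]

theorem K4_cases : ∀ s : K4, s ≠ 0 → s = c4 1 ∨ s = c4 2 ∨ s = c4 3 := by decide +kernel

lemma pt_scV {s : K4} (hs : s ≠ 0) (w : V6) : pt (scV s w) = pt w := by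
  have h := of_guard (by norm_num) pt_all (enc w) (enc_lt w)
  simp only [pt_ok, Bool.and_eq_true, dec_enc] at h
  obtain ⟨⟨h1, h2⟩, h3⟩ := h
  rcases K4_cases s hs with rfl | rfl | rfl
  · exact Nat.eq_of_beq_eq_true h1
  · exact Nat.eq_of_beq_eq_true h2
  · exact Nat.eq_of_beq_eq_true h3

lemma sc_rep {v : V6} (hv : v ≠ 0) :
    pt v < 1365 ∧ ∃ s : K4, s ≠ 0 ∧ v = scV s (repV (pt v)) := by
  have h := of_guard (by norm_num) sc_all (enc v) (enc_lt v)
  simp only [sc_ok, Bool.or_eq_true, Bool.and_eq_true, dec_enc] at h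
  rcases h with h | ⟨⟨h1, h2⟩, h3⟩
  · exact absurd (Nat.eq_of_beq_eq_true h) (enc_ne hv)
  · refine ⟨Nat.le_of_ble_eq_true h1, topC (enc v), ?_, ?_⟩
    · intro h0
      rw [h0] at h2
      exact absurd (Nat.le_of_ble_eq_true h2) (by decide)
    · exact enc_inj (Nat.eq_of_beq_eq_true h3).symm

/-! ### The six matrices -/

/-- Entries of the six matrices. -/
def lmE (k i j : ℕ) : K4 :=
  c4 (Nat.shiftRight lmTab (Nat.mul 2 (Nat.add (Nat.mul 64 k) (Nat.add (Nat.mul 8 i) j))))

/-- The six matrices. -/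
def LM (k : ℕ) : M8 := Matrix.of fun i j => lmE k i.1 j.1

/-- The six matrices on the module. -/
def mv6 (k : ℕ) (v : V6) : V6 := fun i =>
  K4.add (K4.mul (lmE k (Nat.succ i.1) 1) (v z0)) (K4.add (K4.mul (lmE k (Nat.succ i.1) 2) (v z1))
    (K4.add (K4.mul (lmE k (Nat.succ i.1) 3) (v z2)) (K4.add (K4.mul (lmE k (Nat.succ i.1) 4) (v z3))
      (K4.add (K4.mul (lmE k (Nat.succ i.1) 5) (v z4)) (K4.mul (lmE k (Nat.succ i.1) 6) (v z5))))))

lemma rho_LM (k : ℕ) (y : GL (Fin 8) K4) (hy : (y : M8) = LM k) (v : V6) : rho y v = mv6 k v := by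
  have h0 : ∀ (M : M8) (i : Fin 8), (M *ᵥ incl v) i = M i 1 * v 0 + (M i 2 * v 1 + (M i 3 * v 2 + (M i 4 * v 3 +
      (M i 5 * v 4 + M i 6 * v 5)))) := by
    intro M i
    simp [Matrix.mulVec, dotProduct, Fin.sum_univ_succ, incl]
  funext i
  simp only [rho, hy]
  fin_cases i
  · exact h0 (LM k) 1
  · exact h0 (LM k) 2
  · exact h0 (LM k) 3
  · exact h0 (LM k) 4
  · exact h0 (LM k) 5
  · exact h0 (LM k) 6

/-- The tables of the six elements. -/
def tauL (k : ℕ) : ℕ :=
  cond (Nat.beq k 0) T0 (cond (Nat.beq k 1) T1 (cond (Nat.beq k 2) T2 (cond (Nat.beq k 3) T3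
    (cond (Nat.beq k 4) T4 T5))))

/-- The action of a table. -/
def tauAt (T q : ℕ) : ℕ := look 11 2047 T q

def tau_ok (k p : ℕ) : Bool := Nat.beq (pt (mv6 k (repV p))) (tauAt (tauL k) p)

theorem tau_all : allR (guard (fun k => allR (guard (tau_ok k) 1365) 11 0) 6) 3 0 = true := by
  decide +kernel

theorem tau_eq (k p : ℕ) (hk : k < 6) (hp : p < 1365) : pt (mv6 k (repV p)) = tauAt (tauL k) p :=
  Nat.eq_of_beq_eq_true (of_guard (by norm_num) (of_guard (by norm_num) tau_all k hk) p hp)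

/-! ### The elements -/

lemma nroots_eq : chevG2.nroots = 12 := rfl

/-- The root of a code. -/
def rtC (c : ℕ) : Fin chevG2.nroots := ⟨(c / 4) % 12, by rw [nroots_eq]; exact Nat.mod_lt _ (by norm_num)⟩

theorem xsq : ∀ (r : Fin chevG2.nroots) (t : K4), chevG2.xMat K4 r t * chevG2.xMat K4 r t = 1 := by
  decide +kernel

/-- The root element of a code. -/
def gC (c : ℕ) : Lg :=
  ⟨⟨chevG2.xMat K4 (rtC c) (c4 c), chevG2.xMat K4 (rtC c) (c4 c), xsq _ _, xsq _ _⟩,
    Subgroup.subset_closure ⟨rtC c, c4 c, rfl⟩⟩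

/-- The element of a word in root elements. -/
def wG : List ℕ → Lg
  | [] => 1
  | c :: w => gC c * wG w

/-- The matrix of a word in root elements. -/
def wM : List ℕ → M8
  | [] => 1
  | c :: w => yM (rtC c).1 (c4 c) * wM w

lemma phi_wG (w : List ℕ) : ((phi (wG w) : GL (Fin 8) K4) : M8) = wM w := by
  induction w with
  | nil => simp [wG, wM]
  | cons c w ih =>
    rw [wG, wM, map_mul, Units.val_mul, ih, phi_gen (rtC c) (c4 c) (gC c) rfl]
    rfl

theorem LM_chk : ∀ k, k < 6 → wM (lwL k) = LM k := by decide +kernel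

/-- The six elements. -/
def Lt (k : ℕ) : Lg := wG (lwL k)

lemma phi_Lt (k : ℕ) (hk : k < 6) : ((phi (Lt k) : GL (Fin 8) K4) : M8) = LM k := by
  rw [Lt, phi_wG, LM_chk k hk]

/-- The action on the module. -/
noncomputable def rhoPerm : Lg →* Perm V6 :=
  MonoidHom.mk' (fun g =>
    { toFun := rho (phi g)
      invFun := rho (phi g⁻¹)
      left_inv := fun v => by
        show rho (phi g⁻¹) (rho (phi g) v) = v
        rw [← rho_mul (phi_rel _).1 (phi_rel _).1, ← map_mul, inv_mul_cancel, map_one, rho_one]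
      right_inv := fun v => by
        show rho (phi g) (rho (phi g⁻¹) v) = v
        rw [← rho_mul (phi_rel _).1 (phi_rel _).1, ← map_mul, mul_inv_cancel, map_one, rho_one] })
    (fun a b => by
      refine Equiv.ext fun v => ?_
      show rho (phi (a * b)) v = rho (phi a) (rho (phi b) v)
      rw [map_mul]
      exact rho_mul (phi_rel a).1 (phi_rel b).1 v)

lemma rhoPerm_apply (g : Lg) (v : V6) : rhoPerm g v = rho (phi g) v := rfl

lemma incl_smul (c : K4) (v : V6) : incl (c • v) = c • incl v := by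
  apply ext8 <;> simp [incl]

lemma rho_scV (y : GL (Fin 8) K4) (s : K4) (w : V6) : rho y (scV s w) = scV s (rho y w) := by
  have h : ∀ u : V6, scV s u = s • u := fun u => rfl
  rw [h, h, rho, rho, incl_smul, Matrix.mulVec_smul, proj_smul]

lemma rho_zero (y : GL (Fin 8) K4) : rho y 0 = 0 := by
  have h := rho_add y 0 0
  rw [add_zero] at h
  exact left_eq_add.mp h

lemma rhoPerm_ne (g : Lg) {v : V6} (hv : v ≠ 0) : rhoPerm g v ≠ 0 := by
  intro h
  apply hv
  apply (rhoPerm g).injective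
  rw [h]
  exact (rho_zero _).symm

/-- An element acts on the points by a function. -/
def Eqv (g : Lg) (f : ℕ → ℕ) : Prop := ∀ v, v ≠ 0 → pt (rhoPerm g v) = f (pt v)

lemma Lt_eqv (k : ℕ) (hk : k < 6) : Eqv (Lt k) (tauAt (tauL k)) := by
  intro v hv
  obtain ⟨hp, s, hs, hvs⟩ := sc_rep hv
  have h1 : rhoPerm (Lt k) v = scV s (mv6 k (repV (pt v))) := by
    rw [rhoPerm_apply]
    conv_lhs => rw [hvs]
    rw [rho_scV, rho_LM k _ (phi_Lt k hk)]
  rw [h1, pt_scV hs, tau_eq k _ hk hp]

/-- The element of a word in the six elements. -/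
def wL : List ℕ → Lg
  | [] => 1
  | k :: w => Lt k * wL w

/-- The action of a word on points. -/
def tauW : List ℕ → ℕ → ℕ
  | [], q => q
  | k :: w, q => tauAt (tauL k) (tauW w q)

lemma wL_eqv (w : List ℕ) (hw : ∀ k ∈ w, k < 6) : Eqv (wL w) (tauW w) := by
  induction w with
  | nil =>
    intro v _
    simp [wL, tauW]
  | cons k w ih =>
    intro v hv
    have hw' : ∀ k ∈ w, k < 6 := fun l hl => hw l (List.mem_cons_of_mem _ hl)
    rw [wL, map_mul, Perm.mul_apply, Lt_eqv k (hw k List.mem_cons_self) _ (rhoPerm_ne _ hv), ih hw' v hv]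
    rfl

/-- The generators. -/
def a0 : Lg := wL wa
def b0 : Lg := wL wb

def tauA_ok (q : ℕ) : Bool := Nat.beq (tauW wa q) (tauAt tauATab q)
def tauB_ok (q : ℕ) : Bool := Nat.beq (tauW wb q) (tauAt tauBTab q)
theorem tauA_all : allR (guard tauA_ok 1365) 11 0 = true := by decide +kernel
theorem tauB_all : allR (guard tauB_ok 1365) 11 0 = true := by decide +kernel
theorem wa_lt : ∀ k ∈ wa, k < 6 := by decide +kernel
theorem wb_lt : ∀ k ∈ wb, k < 6 := by decide +kernel

lemma pt_lt {v : V6} (hv : v ≠ 0) : pt v < 1365 := (sc_rep hv).1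

lemma a0_eqv : Eqv a0 (tauAt tauATab) := by
  intro v hv
  rw [a0, wL_eqv wa wa_lt v hv]
  exact Nat.eq_of_beq_eq_true (of_guard (by norm_num) tauA_all _ (pt_lt hv))

lemma b0_eqv : Eqv b0 (tauAt tauBTab) := by
  intro v hv
  rw [b0, wL_eqv wb wb_lt v hv]
  exact Nat.eq_of_beq_eq_true (of_guard (by norm_num) tauB_all _ (pt_lt hv))

/-! ### The sets -/

/-- The mask of a set of points. -/
def maskAt (i : ℕ) : ℕ :=
  Nat.land (Nat.shiftRight maskTab (Nat.mul 1365 i)) (Nat.sub (Nat.pow 2 1365) 1)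

/-- A bit. -/
def bit (m q : ℕ) : ℕ := Nat.land (Nat.shiftRight m q) 1

lemma bit_iff (m q : ℕ) : bit m q = 1 ↔ m.testBit q = true := by
  have h : bit m q = (m >>> q) &&& 1 := rfl
  rw [h, Nat.and_one_is_mod, Nat.shiftRight_eq_div_pow, Nat.testBit_eq_decide_div_mod_eq]
  simp

/-- A plain loop. -/
def allN (P : ℕ → Bool) (n : ℕ) : Bool := Nat.rec true (fun m ih => cond (P m) ih false) n

theorem of_allN {P : ℕ → Bool} {n : ℕ} (h : allN P n = true) : ∀ q, q < n → P q = true := by
  induction n with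
  | zero => intro q hq; omega
  | succ n ih =>
    have h1 : cond (P n) (allN P n) false = true := h
    cases h2 : P n with
    | false =>
      rw [h2] at h1
      exact absurd h1 (by simp)
    | true =>
      rw [h2] at h1
      intro q hq
      rcases Nat.lt_succ_iff_lt_or_eq.mp hq with h3 | rfl
      · exact ih h1 q h3
      · exact h2

/-- The test that a table maps one mask to another. -/
def rowChk (T m1 m2 : ℕ) : Bool :=
  allN (fun q => Nat.beq (Nat.land (Nat.shiftRight m1 q) 1)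
    (Nat.land (Nat.shiftRight m2 (Nat.land (Nat.shiftRight T (Nat.mul 11 q)) 2047)) 1)) 1365

/-- The test for two sets. -/
def pairChk (T i j : ℕ) : Bool :=
  letN (maskAt i) fun m1 => letN (maskAt j) fun m2 => rowChk T m1 m2

lemma of_pairChk {T i j : ℕ} (h : pairChk T i j = true) (q : ℕ) (hq : q < 1365) :
    bit (maskAt i) q = bit (maskAt j) (tauAt T q) := by
  rw [pairChk, letN_eq, letN_eq] at h
  exact Nat.eq_of_beq_eq_true (of_allN h q hq)

def a_ok (i : ℕ) : Bool := pairChk tauATab i (aT i)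
def b_ok (i : ℕ) : Bool := pairChk tauBTab i (bT i)
theorem a_all : allR (guard a_ok 416) 9 0 = true := by decide +kernel
theorem b_all : allR (guard b_ok 416) 9 0 = true := by decide +kernel

/-- The tree of the sets. -/
def treeS_ok (i : ℕ) : Bool :=
  Nat.beq i i0 || (Nat.blt (look 9 511 treePar i) 416 &&
    Nat.blt (look 9 511 treeRk (look 9 511 treePar i)) (look 9 511 treeRk i) &&
    Nat.blt (look 3 7 treeLt i) 6 &&
    pairChk (tauL (look 3 7 treeLt i)) (look 9 511 treePar i) i)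
theorem treeS_all : allR (guard treeS_ok 416) 9 0 = true := by decide +kernel

def mono_ok (i : ℕ) : Bool := Nat.blt (maskAt i) (maskAt (Nat.succ i))
theorem mono_all : allR (guard mono_ok 415) 9 0 = true := by decide +kernel

/-- The sets. -/
def Bs (i : Fin 416) : Set V6 := {v | v ≠ 0 ∧ bit (maskAt i.val) (pt v) = 1}

lemma image_Bs {g : Lg} {f : ℕ → ℕ} (hg : Eqv g f) (i j : Fin 416)
    (h : ∀ q, q < 1365 → bit (maskAt i.val) q = bit (maskAt j.val) (f q)) :
    rhoPerm g '' Bs i = Bs j := by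
  ext w
  constructor
  · rintro ⟨v, ⟨hv, hb⟩, rfl⟩
    refine ⟨rhoPerm_ne g hv, ?_⟩
    rw [hg v hv, ← h _ (pt_lt hv), hb]
  · rintro ⟨hw, hb⟩
    set v : V6 := (rhoPerm g)⁻¹ w with hvdef
    have hvw : rhoPerm g v = w := by simp [hvdef]
    have hv : v ≠ 0 := by
      intro h0
      rw [h0] at hvw
      apply hw
      rw [← hvw]
      exact rho_zero _
    refine ⟨v, ⟨hv, ?_⟩, hvw⟩
    rw [h _ (pt_lt hv), ← hg v hv, hvw, hb]

lemma Bs_inj : Function.Injective Bs := by
  intro i j hij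
  have h1 : maskAt i.val = maskAt j.val := by
    have hlim : ∀ k, maskAt k < 2 ^ 1365 := by
      intro k
      have h2 : maskAt k ≤ Nat.sub (Nat.pow 2 1365) 1 := Nat.and_le_right
      have h3 : Nat.sub (Nat.pow 2 1365) 1 < 2 ^ 1365 := by
        show 2 ^ 1365 - 1 < 2 ^ 1365
        exact Nat.sub_lt (by positivity) (by norm_num)
      omega
    apply Nat.eq_of_testBit_eq
    intro q
    by_cases hq : q < 1365
    · have hr := rep_pt q hq
      have hne : repV q ≠ 0 := by
        intro h0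
        rw [h0] at hr
        revert hr
        have h00 : pt (0 : V6) = 1365 := by decide +kernel
        rw [h00]
        omega
      have h2 : (repV q ∈ Bs i) ↔ (repV q ∈ Bs j) := by rw [hij]
      simp only [Bs, Set.mem_setOf_eq, hne, hr, ne_eq, not_false_eq_true, true_and] at h2
      rw [bit_iff, bit_iff] at h2
      cases h3 : (maskAt i.val).testBit q <;> cases h4 : (maskAt j.val).testBit q <;> simp_all
    · have hk : 2 ^ 1365 ≤ 2 ^ q := Nat.pow_le_pow_right (by norm_num) (by omega)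
      rw [Nat.testBit_lt_two_pow (lt_of_lt_of_le (hlim _) hk),
        Nat.testBit_lt_two_pow (lt_of_lt_of_le (hlim _) hk)]
  have hm : ∀ k, k + 1 < 416 → maskAt k < maskAt (k + 1) := fun k hk =>
    Nat.le_of_ble_eq_true (of_guard (by norm_num) mono_all k (by omega))
  exact Fin.ext (eq_of_adjacent hm _ _ i.2 j.2 h1)

lemma a0_image (i : Fin 416) : rhoPerm a0 '' Bs i = Bs (aF i) :=
  image_Bs a0_eqv i (aF i) (fun q hq => of_pairChk (of_guard (by norm_num) a_all i.val i.2) q hq)

lemma b0_image (i : Fin 416) : rhoPerm b0 '' Bs i = Bs (bF i) :=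
  image_Bs b0_eqv i (bF i) (fun q hq => of_pairChk (of_guard (by norm_num) b_all i.val i.2) q hq)

lemma tree_Bs (i : Fin 416) : ∃ g, rhoPerm g '' Bs i0F = Bs i := by
  have key := Cfsg.Agent.Lib.XPrimGen.tree_ind (N := 416)
    (P := fun p => ∀ hp : p < 416, ∃ g, rhoPerm g '' Bs i0F = Bs ⟨p, hp⟩) (look 9 511 treeRk)
    (look 9 511 treePar) (fun p hp => by
      have h := of_guard (by norm_num) treeS_all p hp
      simp only [treeS_ok, Bool.or_eq_true, Bool.and_eq_true] at h
      rcases h with h | ⟨⟨⟨h1, h2⟩, h3⟩, h4⟩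
      · left
        intro hp'
        have h0 : p = i0 := Nat.eq_of_beq_eq_true h
        refine ⟨1, ?_⟩
        have : (⟨p, hp'⟩ : Fin 416) = i0F := Fin.ext h0
        rw [this]
        simp
      · have h1' : look 9 511 treePar p < 416 := Nat.le_of_ble_eq_true h1
        refine Or.inr ⟨h1', Nat.le_of_ble_eq_true h2, fun hP hp' => ?_⟩
        obtain ⟨g, hg⟩ := hP h1'
        refine ⟨Lt (look 3 7 treeLt p) * g, ?_⟩
        rw [map_mul, Perm.coe_mul, Set.image_comp, hg]
        exact image_Bs (Lt_eqv _ (Nat.le_of_ble_eq_true h3)) _ _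
          (fun q hq => of_pairChk h4 q hq))
  exact key i.val i.2 i.2

/-! ### The theorem -/

theorem main_F {F : Type*} [Field F] [Fintype F] (hF : Fintype.card F = 4) :
    Goal (chevG2.group F) := by
  have hc : Fintype.card F = Fintype.card K4 := by rw [hF, K4.card_K4]
  let f : F ≃+* K4 := FiniteField.ringEquivOfCardEq hc
  let e : chevG2.group F ≃* Lg := Cfsg.Agent.Lib.ChevTransfer.groupEquiv chevG2 f
  have hG : Nat.card (chevG2.group F) = 251596800 := by
    rw [Cfsg.Agent.S1059.result hF]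
    norm_num
  refine abs_main hG (rhoPerm.comp e.toMonoidHom) Bs Bs_inj ?_ (e.symm a0) (e.symm b0) ?_ ?_
  · intro i
    obtain ⟨g, hg⟩ := tree_Bs i
    exact ⟨e.symm g, by simpa using hg⟩
  · intro i
    simpa using a0_image i
  · intro i
    simpa using b0_image i

end Cfsg.Agent.Lib.J2G24Mod
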