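import Cfsg.Agent.Lib.J2U33Dat
import Cfsg.Agent.Lib.U33Main
import Cfsg.Agent.Lib.J2Iso
import Cfsg.Agent.Lib.CentDfs

/-!
# The point stabilizer of `J₂` on 100 points is `PSU₃(3)`, with suborbits 1, 36, 63
-/

set_option autoImplicit false
set_option maxRecDepth 100000

namespace Cfsg.Agent.Lib.J2U33

open Cfsg Cfsg.Agent.Lib.F9K Cfsg.Agent.Lib.U33Data Cfsg.Agent.Lib.U33Group Cfsg.Agent.Lib.J2U33Dat
open Cfsg.Agent.Lib.PermChain Cfsg.Agent.Lib.ProgChain Cfsg.Agent.Lib.SpecDfs Cfsg.Agent.Lib.CentDfs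
open Cfsg.Agent.Lib.J2PMain Cfsg.Agent.Lib.J2SpecD Cfsg.Agent.Lib.J2PTab
open Cfsg.Agent.Lib.SchurCoset46 Cfsg.Agent.Lib.SchurPack Cfsg.Agent.Lib.SchurTower Cfsg.Agent.Lib.U33Main

/-! ### The generators of `SU₃(3)` -/

theorem decM_one : decM oneC = ⟨1, 0, 0, 0, 1, 0, 0, 0, 1⟩ := by
  apply (meq_iff _ _).1
  decide +kernel

theorem ent_one : ent (1 : L) = decM oneC := by
  rw [decM_one]
  simp [ent, toM_one, Matrix.one_apply]

/-- the first generator -/
noncomputable def aL : L := mkL (decM aC)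
/-- the second generator -/
noncomputable def bL : L := mkL (decM bC)
/-- the inverse of the first generator -/
noncomputable def aiL : L := mkL (decM aiC)
/-- the inverse of the second generator -/
noncomputable def biL : L := mkL (decM biC)

theorem ent_a : ent aL = decM aC := ent_mkL gens_good.1
theorem ent_b : ent bL = decM bC := ent_mkL gens_good.2.1
theorem ent_ai : ent aiL = decM aiC := ent_mkL gens_good.2.2.1
theorem ent_bi : ent biL = decM biC := ent_mkL gens_good.2.2.2

theorem a_mul : aL * aiL = 1 := by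
  apply ent_inj
  rw [ent_mul, ent_a, ent_ai, ent_one]
  exact inv_chk.1

theorem b_mul : bL * biL = 1 := by
  apply ent_inj
  rw [ent_mul, ent_b, ent_bi, ent_one]
  exact inv_chk.2

theorem a_inv : aL⁻¹ = aiL := (eq_inv_of_mul_eq_one_right a_mul).symm ▸ rfl
theorem b_inv : bL⁻¹ = biL := (eq_inv_of_mul_eq_one_right b_mul).symm ▸ rfl

/-- the generators -/
noncomputable def yL (i : ℕ) : L := if i = 0 then aL else bL

theorem yL_zero : yL 0 = aL := rfl
theorem yL_one : yL 1 = bL := by simp [yL]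

/-- the matrix of a letter -/
def letM (l : ℕ) : Mt := decM ([aC, aiC, bC, biC].getD l oneC)

/-- the matrix of a word -/
def evM : List ℕ → Mt
  | [] => decM oneC
  | l :: w => mmul (letM l) (evM w)

theorem ent_lett (l : ℕ) (hl : l < 4) : ent (lett yL l) = letM l := by
  interval_cases l
  · show ent (if 0 % 2 = 0 then yL (0 / 2) else (yL (0 / 2))⁻¹) = _
    rw [if_pos (by norm_num)]
    exact ent_a
  · show ent (if 1 % 2 = 0 then yL (1 / 2) else (yL (1 / 2))⁻¹) = _
    rw [if_neg (by norm_num)]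
    show ent (aL⁻¹) = _
    rw [a_inv]
    exact ent_ai
  · show ent (if 2 % 2 = 0 then yL (2 / 2) else (yL (2 / 2))⁻¹) = _
    rw [if_pos (by norm_num)]
    show ent (yL 1) = _
    rw [yL_one]
    exact ent_b
  · show ent (if 3 % 2 = 0 then yL (3 / 2) else (yL (3 / 2))⁻¹) = _
    rw [if_neg (by norm_num)]
    show ent ((yL 1)⁻¹) = _
    rw [yL_one, b_inv]
    exact ent_bi

theorem ent_evW : ∀ w : List ℕ, (∀ l ∈ w, l < 4) → ent (evW yL w) = evM w
  | [], _ => ent_one
  | l :: w, h => by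
    rw [evW, evM, ent_mul, ent_lett l (h l (by simp)), ent_evW w fun m hm => h m (by simp [hm])]

theorem rels_chk : (rels.all fun r => meq (evM r) (decM oneC)) = true := by decide +kernel

theorem yL_rel : ∀ r ∈ rels, evW yL r = 1 := by
  intro r hr
  apply ent_inj
  have h1 := (List.all_eq_true.mp rels_chk) r hr
  rw [ent_evW r (rels_lt r hr), ent_one]
  exact (meq_iff _ _).1 h1

theorem chkB_at {i : ℕ} (hi : i < 6048) : chkB i = true :=
  List.all_eq_true.mp chkB_all i (List.mem_range.mpr hi)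

/-- two elements satisfying nothing but being these generators generate the group -/
theorem top_of_mem (A : Subgroup L) (h0 : aL ∈ A) (h1 : bL ∈ A) : A = ⊤ := by
  have key : ∀ d i, i < 6048 → dpB i = d → ∃ x ∈ A, ent x = decM (cdB i) := by
    intro d
    induction d using Nat.strong_induction_on with
    | _ d ih =>
      intro i hi hd
      have hc := chkB_at hi
      rw [chkB] at hc
      cases e : Nat.beq (dpB i) 0 with
      | true =>
        rw [e, cond_true] at hc
        refine ⟨1, A.one_mem, ?_⟩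
        rw [ent_one, Nat.eq_of_beq_eq_true hc]
      | false =>
        rw [e, cond_false, Bool.and_eq_true, Bool.and_eq_true] at hc
        obtain ⟨⟨h2, h3⟩, h4⟩ := hc
        have h5 : dpB (prB i) < d := hd ▸ Nat.le_of_ble_eq_true h2
        have h6 : prB i < 6048 := Nat.le_of_ble_eq_true h3
        obtain ⟨x, hx, ex⟩ := ih _ h5 _ h6 rfl
        have h7 := (meq_iff _ _).1 h4
        cases e2 : Nat.beq (gnB i) 0 with
        | true =>
          rw [e2, cond_true] at h7
          refine ⟨x * aL, A.mul_mem hx h0, ?_⟩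
          rw [ent_mul, ex, ent_a, h7]
        | false =>
          rw [e2, cond_false] at h7
          refine ⟨x * bL, A.mul_mem hx h1, ?_⟩
          rw [ent_mul, ex, ent_b, h7]
  rw [eq_top_iff]
  intro g _
  have h2 : g ∈ (data.map E).toFinset := by rw [elts_univ]; exact Finset.mem_univ g
  obtain ⟨d, hd, rfl⟩ := List.mem_map.mp (List.mem_toFinset.mp h2)
  have h3 : d.1 ∈ (List.range 6048).map cdB := by
    rw [← codes_eq]
    exact List.mem_map.mpr ⟨d, hd, rfl⟩
  obtain ⟨i, hi, e⟩ := List.mem_map.mp h3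
  obtain ⟨x, hx, ex⟩ := key _ i (List.mem_range.mp hi) rfl
  have : x = E d := by
    apply ent_inj
    rw [ex, ent_E hd, e]
  exact this ▸ hx

/-! ### The generators of the point stabilizer -/

/-- the generators on the points -/
noncomputable def sP (i : ℕ) : Equiv.Perm (Fin 100) := if i = 0 then g 22 else prodW g wB

theorem wB_ok : wB.all (Nat.ble 22) = true := by decide +kernel
theorem wB_lt : (wB.all fun e => Nat.ble (Nat.succ e) 48) = true := by decide +kernel

theorem sP_mem (i : ℕ) : sP i ∈ H := by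
  unfold sP
  split_ifs
  · exact lev1.1 22 le_rfl
  · exact prodW_mem lev1.1 wB_ok

/-- the generators in the point stabilizer -/
noncomputable def sH (i : ℕ) : ↥H := ⟨sP i, sP_mem i⟩

/-- the code of the first generator -/
def cA : ℕ := lc 22
/-- the code of the second generator -/
def cB : ℕ := wordC wB

theorem rep_A : Rep (sP 0) cA := by
  show Rep (if 0 = 0 then g 22 else prodW g wB) _
  rw [if_pos rfl]
  exact lc_rep (by norm_num)

theorem rep_B : Rep (sP 1) cB := by
  show Rep (if 1 = 0 then g 22 else prodW g wB) _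
  rw [if_neg (by norm_num)]
  exact rep_word fun e he => Nat.le_of_ble_eq_true (List.all_eq_true.mp wB_lt e he)

/-- the code of a letter -/
def letC (l : ℕ) : ℕ :=
  [cA, powC 100 idC cA 6, cB, powC 100 idC cB 6].getD l idC

/-- the code of a word -/
def evC : List ℕ → ℕ
  | [] => idC
  | l :: w => mulC 100 (letC l) (evC w)

theorem A_seven : powC 100 idC cA 7 = idC := by decide +kernel
theorem B_seven : powC 100 idC cB 7 = idC := by decide +kernel

theorem inv_of_seven {x : Equiv.Perm (Fin 100)} {c : ℕ} (hx : Rep x c) (h : powC 100 idC c 7 = idC) :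
    x⁻¹ = x ^ 6 := by
  have h1 : x ^ 7 = 1 := by
    have h2 := rep_pow rep_one hx 7
    rw [h] at h2
    exact rep_unique h2 rep_one
  rw [inv_eq_iff_mul_eq_one, ← pow_succ']
  exact h1

theorem rep_lett (l : ℕ) (hl : l < 4) : Rep (lett sP l) (letC l) := by
  interval_cases l
  · show Rep (if 0 % 2 = 0 then sP (0 / 2) else (sP (0 / 2))⁻¹) _
    rw [if_pos (by norm_num)]
    exact rep_A
  · show Rep (if 1 % 2 = 0 then sP (1 / 2) else (sP (1 / 2))⁻¹) _
    rw [if_neg (by norm_num)]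
    show Rep ((sP 0)⁻¹) _
    rw [inv_of_seven rep_A A_seven]
    exact rep_pow rep_one rep_A 6
  · show Rep (if 2 % 2 = 0 then sP (2 / 2) else (sP (2 / 2))⁻¹) _
    rw [if_pos (by norm_num)]
    exact rep_B
  · show Rep (if 3 % 2 = 0 then sP (3 / 2) else (sP (3 / 2))⁻¹) _
    rw [if_neg (by norm_num)]
    show Rep ((sP 1)⁻¹) _
    rw [inv_of_seven rep_B B_seven]
    exact rep_pow rep_one rep_B 6

theorem rep_evW : ∀ w : List ℕ, (∀ l ∈ w, l < 4) → Rep (evW sP w) (evC w)
  | [], _ => rep_one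
  | l :: w, h => by
    rw [evW, evC]
    exact rep_mul (rep_lett l (h l (by simp))) (rep_evW w fun m hm => h m (by simp [hm]))

theorem relsC_chk : (rels.all fun r => Nat.beq (evC r) idC) = true := by decide +kernel

theorem sP_rel : ∀ r ∈ rels, evW sP r = 1 := by
  intro r hr
  have h1 := Nat.eq_of_beq_eq_true ((List.all_eq_true.mp relsC_chk) r hr)
  have h2 := rep_evW r (rels_lt r hr)
  rw [h1] at h2
  exact rep_unique h2 rep_one

theorem sH_rel : ∀ r ∈ rels, evW sH r = 1 := by
  intro r hr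
  apply Subtype.ext
  have h1 := map_evW H.subtype sH r
  have h2 : (fun i => H.subtype (sH i)) = sP := rfl
  rw [h2] at h1
  show H.subtype (evW sH r) = 1
  rw [h1]
  exact sP_rel r hr

theorem vB_chk : evC vB = lc 23 := by decide +kernel
theorem vB_lt : ∀ l ∈ vB, l < 4 := by decide +kernel

theorem evW_mem_sP (A : Subgroup (Equiv.Perm (Fin 100))) (h0 : sP 0 ∈ A) (h1 : sP 1 ∈ A) :
    ∀ w : List ℕ, (∀ l ∈ w, l < 4) → evW sP w ∈ A
  | [], _ => A.one_mem
  | l :: w, h => by
    rw [evW]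
    refine A.mul_mem ?_ (evW_mem_sP A h0 h1 w fun m hm => h m (by simp [hm]))
    have hl := h l (by simp)
    have h2 : sP (l / 2) ∈ A := by
      have : l / 2 = 0 ∨ l / 2 = 1 := by omega
      rcases this with e | e <;> rw [e] <;> assumption
    unfold lett
    split_ifs
    · exact h2
    · exact A.inv_mem h2

theorem g23_eq : g 23 = evW sP vB := by
  have h1 := rep_evW vB vB_lt
  rw [vB_chk] at h1
  exact rep_unique (lc_rep (by norm_num)) h1

theorem sH_gen : Subgroup.closure (sH '' Set.Iio 2) = ⊤ := by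
  apply Subgroup.map_injective H.subtype_injective
  rw [MonoidHom.map_closure, ← MonoidHom.range_eq_map, Subgroup.range_subtype]
  apply le_antisymm
  · rw [Subgroup.closure_le]
    rintro _ ⟨_, ⟨i, _, rfl⟩, rfl⟩
    exact sP_mem i
  · have h0 : sP 0 ∈ Subgroup.closure (H.subtype '' (sH '' Set.Iio 2)) :=
      Subgroup.subset_closure ⟨sH 0, ⟨0, by simp, rfl⟩, rfl⟩
    have h1 : sP 1 ∈ Subgroup.closure (H.subtype '' (sH '' Set.Iio 2)) :=
      Subgroup.subset_closure ⟨sH 1, ⟨1, by simp, rfl⟩, rfl⟩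
    show grp g 22 2 ≤ _
    unfold grp genOf
    rw [Subgroup.closure_le]
    rintro _ ⟨e, he, rfl⟩
    have h2 := List.mem_range'_1.mp he
    have h3 : e = 22 ∨ e = 23 := by omega
    rcases h3 with rfl | rfl
    · exact h0
    · show g 23 ∈ _
      rw [g23_eq]
      exact evW_mem_sP _ h0 h1 vB vB_lt

theorem hFP : FP sH 2 rels := ⟨sH_gen, sH_rel, rels_lt, by
  show OrdBd 2 rels (Nat.card (grp g 22 2))
  rw [cardH1]
  exact ordBd⟩

/-- The point stabilizer is `SU₃(3)`. -/
theorem nonempty_equiv_L : Nonempty (↥H ≃* L) := by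
  obtain ⟨φ, hφ⟩ := hFP.exists_hom yL yL_rel
  have hs : Function.Surjective φ := by
    rw [← MonoidHom.range_eq_top]
    apply top_of_mem
    · exact ⟨sH 0, hφ 0 (by norm_num)⟩
    · exact ⟨sH 1, (hφ 1 (by norm_num)).trans yL_one⟩
  have hb := hs.bijective_of_nat_card_le (by
    rw [natCard_L]
    show Nat.card (grp g 22 2) ≤ 6048
    rw [cardH1])
  exact ⟨MulEquiv.ofBijective φ hb⟩

theorem center_L : Subgroup.center L = ⊥ := by
  have h := Cfsg.Agent.Lib.UnitarySU.card_center_SU' (F := K9) (q := 3) (by rw [K9.card_K9]; norm_num) 3 (by norm_num)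
  exact Subgroup.eq_bot_of_card_eq _ (by rw [h]; norm_num)

/-- `SU₃(3)` has a trivial centre. -/
noncomputable def equivPSU : L ≃* PSU 3 K9 3 :=
  (QuotientGroup.quotientBot (G := L)).symm.trans (QuotientGroup.quotientMulEquivOfEq center_L.symm)

/-! ### Suborbits -/

/-- A transfer of orbits from a quotient by a point stabilizer. -/
theorem ncard_orbit_quot {J X : Type*} [Group J] (ρ : J →* Equiv.Perm X) (b : X) (K : Subgroup J)
    (hK : ∀ x, x ∈ K ↔ ρ x b = b) (y : J) (O : Set X)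
    (hO : ∀ q, q ∈ O ↔ ∃ h ∈ K, ρ h (ρ y b) = q) :
    (MulAction.orbit ↥K ((y : J) : J ⧸ K)).ncard = O.ncard := by
  classical
  let f : J ⧸ K → X := fun c => Quotient.liftOn' c (fun x => ρ x b) (by
    intro u v huv
    have h1 : u⁻¹ * v ∈ K := QuotientGroup.leftRel_apply.mp huv
    have h2 := (hK _).1 h1
    rw [map_mul, map_inv, Equiv.Perm.mul_apply, Equiv.Perm.inv_eq_iff_eq] at h2
    exact h2.symm)
  have hf : ∀ x : J, f (x : J ⧸ K) = ρ x b := fun _ => rfl
  have finj : Function.Injective f := by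
    intro c d
    induction c using QuotientGroup.induction_on with
    | H u =>
      induction d using QuotientGroup.induction_on with
      | H v =>
        intro h
        rw [hf, hf] at h
        apply QuotientGroup.eq.mpr
        apply (hK _).2
        rw [map_mul, map_inv, Equiv.Perm.mul_apply, Equiv.Perm.inv_eq_iff_eq]
        exact h.symm
  rw [← Set.ncard_image_of_injective _ finj]
  congr 1
  ext q
  rw [hO q]
  constructor
  · rintro ⟨c, ⟨h, rfl⟩, rfl⟩
    refine ⟨h.1, h.2, ?_⟩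
    show _ = f (((h : J) * y : J) : J ⧸ K)
    rw [hf, map_mul, Equiv.Perm.mul_apply]
  · rintro ⟨h, hh, rfl⟩
    refine ⟨_, ⟨⟨h, hh⟩, rfl⟩, ?_⟩
    show f (((h : J) * y : J) : J ⧸ K) = _
    rw [hf, map_mul, Equiv.Perm.mul_apply]

/-! ### The action of `J₂` -/

/-- the action of the Hall-Janko group on 100 points -/
noncomputable def rho : Spor.J2 →* Equiv.Perm (Fin 100) :=
  G.subtype.comp Cfsg.Agent.Lib.J2Iso.j2EquivG.toMonoidHom

theorem rho_mem (x : Spor.J2) : rho x ∈ G := (Cfsg.Agent.Lib.J2Iso.j2EquivG x).2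

theorem rho_inj : Function.Injective rho :=
  G.subtype_injective.comp Cfsg.Agent.Lib.J2Iso.j2EquivG.injective

theorem rho_surj {y : Equiv.Perm (Fin 100)} (hy : y ∈ G) : ∃ x, rho x = y := by
  refine ⟨Cfsg.Agent.Lib.J2Iso.j2EquivG.symm ⟨y, hy⟩, ?_⟩
  show ((Cfsg.Agent.Lib.J2Iso.j2EquivG (Cfsg.Agent.Lib.J2Iso.j2EquivG.symm ⟨y, hy⟩) : G) : Equiv.Perm (Fin 100)) = y
  rw [MulEquiv.apply_symm_apply]

/-- the point stabilizer -/
noncomputable def HJ : Subgroup Spor.J2 := H.comap rho

/-- the base point -/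
def b0 : Fin 100 := ⟨0, by norm_num⟩

theorem mem_HJ (x : Spor.J2) : x ∈ HJ ↔ rho x b0 = b0 := by
  constructor
  · intro h
    exact lev0.2.fix _ h
  · intro h
    have h1 := (lev0.2.cover _ (rho_mem x)).2
    have h2 : (prodW g (J2PTab.tw0 ((rho x b0 : Fin 100) : ℕ)))⁻¹ * rho x ∈ grp g 22 2 := h1
    rw [h] at h2
    have h3 : prodW g (J2PTab.tw0 ((b0 : Fin 100) : ℕ)) = 1 := lev0.2.one
    rw [h3, inv_one, one_mul] at h2
    exact h2

/-- The stabilizer is the group on the points. -/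
noncomputable def equivHJ : ↥HJ ≃* ↥H :=
  MulEquiv.ofBijective (rho.subgroupComap H) (by
    constructor
    · intro x y h
      apply Subtype.ext
      apply rho_inj
      have h2 : (rho x.1 : Equiv.Perm (Fin 100)) = rho y.1 := congrArg (fun z : ↥H => (z : Equiv.Perm (Fin 100))) h
      exact h2
    · rintro ⟨y, hy⟩
      obtain ⟨x, rfl⟩ := rho_surj (lev0.2.le hy)
      exact ⟨⟨x, hy⟩, rfl⟩)

theorem card_J2 : Nat.card Spor.J2 = 604800 := by
  rw [Nat.card_congr Cfsg.Agent.Lib.J2Iso.j2EquivG.toEquiv]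
  exact cardH0

theorem card_HJ : Nat.card ↥HJ = 6048 := by
  rw [Nat.card_congr equivHJ.toEquiv]
  exact cardH1

theorem index_HJ : HJ.index = 100 := by
  have h := Subgroup.card_mul_index HJ
  rw [card_HJ, card_J2] at h
  omega

theorem equiv_PSU : Nonempty (↥HJ ≃* PSU 3 K9 3) := by
  obtain ⟨e⟩ := nonempty_equiv_L
  exact ⟨equivHJ.trans (e.trans equivPSU)⟩

/-- the orbit relation of the group on the points -/
theorem mem_iff_of_rho (y : Spor.J2) (q : Fin 100) :
    (∃ h ∈ HJ, rho h (rho y b0) = q) ↔ ∃ h ∈ H, h (rho y b0) = q := by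
  constructor
  · rintro ⟨h, hh, rfl⟩
    exact ⟨rho h, hh, rfl⟩
  · rintro ⟨h, hh, rfl⟩
    obtain ⟨x, rfl⟩ := rho_surj (lev0.2.le hh)
    exact ⟨x, hh, rfl⟩

/-- the point of the orbit of length 36 -/
def p36 : Fin 100 := ⟨3, by norm_num⟩
/-- the point of the orbit of length 63 -/
def p63 : Fin 100 := ⟨1, by norm_num⟩

theorem exists_y (p : Fin 100) : ∃ y : Spor.J2, rho y b0 = p := by
  have hp : p ∈ orbF 100 Om0 := by
    apply mem_orbF.mpr
    have : ∀ i : Fin 100, Om0.testBit i.val = true := by decide +kernel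
    exact this p
  obtain ⟨y, hy⟩ := rho_surj (lev0.2.mem p hp)
  exact ⟨y, by rw [hy]; exact lev0.2.img p hp⟩

theorem orbit36 (q : Fin 100) : q ∈ orbF 100 Om1 ↔ ∃ h ∈ H, h p36 = q := by
  constructor
  · intro hq
    exact ⟨_, lev1.2.mem q hq, lev1.2.img q hq⟩
  · rintro ⟨h, hh, rfl⟩
    exact (lev1.2.cover h hh).1

theorem inv36 {h : Equiv.Perm (Fin 100)} (hh : h ∈ H) {q : Fin 100} (hq : q ∈ orbF 100 Om1) :
    h q ∈ orbF 100 Om1 := by
  obtain ⟨u, hu, rfl⟩ := (orbit36 q).1 hq
  exact (orbit36 _).2 ⟨h * u, H.mul_mem hh hu, rfl⟩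

theorem om_chk : ∀ i : Fin 100, (Om63.testBit i.val = true ∨ Om1.testBit i.val = true ∨ i = b0) ∧
    ¬ (Om63.testBit i.val = true ∧ Om1.testBit i.val = true) ∧ ¬ (Om63.testBit i.val = true ∧ i = b0) := by
  decide +kernel

theorem inv63 {h : Equiv.Perm (Fin 100)} (hh : h ∈ H) {q : Fin 100} (hq : q ∈ orbF 100 Om63) :
    h q ∈ orbF 100 Om63 := by
  rw [mem_orbF] at hq ⊢
  rcases (om_chk (h q)).1 with h1 | h1 | h1
  · exact h1
  · exfalso
    have h2 := inv36 (H.inv_mem hh) (mem_orbF.mpr h1)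
    have e : h⁻¹ (h q) = q := by simp
    rw [e, mem_orbF] at h2
    exact (om_chk q).2.1 ⟨hq, h2⟩
  · exfalso
    have h2 : h b0 = b0 := lev0.2.fix h hh
    have h3 : q = b0 := h.injective (h1.trans h2.symm)
    exact (om_chk q).2.2 ⟨hq, h3⟩

/-- the check of the words -/
def chk63 : Bool :=
  (List.range 100).all fun q => cond (Om63.testBit q)
    ((tw63 q).all (Nat.ble 22) && (tw63 q).all (fun e => Nat.ble (Nat.succ e) 48) && Nat.beq (im (wordC (tw63 q)) 1) q) true

theorem chk63_ok : chk63 = true := by decide +kernel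

theorem orbit63 (q : Fin 100) : q ∈ orbF 100 Om63 ↔ ∃ h ∈ H, h p63 = q := by
  constructor
  · intro hq
    have h1 := (List.all_eq_true.mp chk63_ok) q.val (List.mem_range.mpr q.isLt)
    rw [mem_orbF.mp hq, cond_true, Bool.and_eq_true, Bool.and_eq_true] at h1
    obtain ⟨⟨h2, h3⟩, h4⟩ := h1
    refine ⟨prodW g (tw63 q.val), prodW_mem lev1.1 h2, ?_⟩
    have h5 := rep_word (w := tw63 q.val) fun e he => Nat.le_of_ble_eq_true (List.all_eq_true.mp h3 e he)
    apply Fin.ext
    rw [rep_im h5 p63]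
    exact Nat.eq_of_beq_eq_true h4
  · rintro ⟨h, hh, rfl⟩
    apply inv63 hh
    rw [mem_orbF]
    decide +kernel

theorem card36 : ((orbF 100 Om1 : Finset (Fin 100)) : Set (Fin 100)).ncard = 36 := by
  rw [Set.ncard_coe_finset, cOm1]

theorem card63 : ((orbF 100 Om63 : Finset (Fin 100)) : Set (Fin 100)).ncard = 63 := by
  rw [Set.ncard_coe_finset, card_orbF]
  decide +kernel

/-- The main theorem. -/
theorem main : ∃ K : Subgroup Spor.J2, K.index = 100 ∧
    (∃ (F : Type) (_ : Field F) (_ : Fintype F), Fintype.card F = 9 ∧ Nonempty (↥K ≃* PSU 3 F 3)) ∧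
    ∃ c₁ c₂ : Spor.J2 ⧸ K, (MulAction.orbit ↥K c₁).ncard = 36 ∧ (MulAction.orbit ↥K c₂).ncard = 63 := by
  refine ⟨HJ, index_HJ, ⟨K9, inferInstance, inferInstance, K9.card_K9, equiv_PSU⟩, ?_⟩
  obtain ⟨y1, hy1⟩ := exists_y p36
  obtain ⟨y2, hy2⟩ := exists_y p63
  refine ⟨(y1 : Spor.J2 ⧸ HJ), (y2 : Spor.J2 ⧸ HJ), ?_, ?_⟩
  · rw [ncard_orbit_quot rho b0 HJ mem_HJ y1 (orbF 100 Om1 : Finset (Fin 100)), card36]
    intro q
    rw [mem_iff_of_rho, hy1, Finset.mem_coe]
    exact orbit36 q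
  · rw [ncard_orbit_quot rho b0 HJ mem_HJ y2 (orbF 100 Om63 : Finset (Fin 100)), card63]
    intro q
    rw [mem_iff_of_rho, hy2, Finset.mem_coe]
    exact orbit63 q

end Cfsg.Agent.Lib.J2U33
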