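import Mathlib
import Cfsg.Agent.Lib.J3Out
import Cfsg.Agent.Lib.J3CentData
import Cfsg.Agent.Lib.LargeQuot

set_option autoImplicit false
set_option maxRecDepth 100000
set_option linter.style.haveILetI false

/-!
# The centralizer of an involution in `J₃`

All involutions of `J₃` are conjugate, and the centralizer of an involution is a split extension of an extraspecial
group of order 32 with no elementary abelian subgroup of order 8 by the alternating group of degree 5.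
-/

namespace Cfsg.Agent.Lib.J3Cent

open Subgroup Cfsg Cfsg.Spor
open Cfsg.Agent.Lib.F4Mat Cfsg.Agent.Lib.ChainCert Cfsg.Agent.Lib.J3Code Cfsg.Agent.Lib.J3Data
  Cfsg.Agent.Lib.J3Check Cfsg.Agent.Lib.J3Chain Cfsg.Agent.Lib.J3Main Cfsg.Agent.Lib.J3FusData
  Cfsg.Agent.Lib.J3Fus Cfsg.Agent.Lib.J3OutData Cfsg.Agent.Lib.J3Out Cfsg.Agent.Lib.J3CentData

theorem dec_all : ∀ m, m < 5760 → Pdec m = true := of_guard (k := 13) (by norm_num) dec_chk
theorem cm_all : ∀ m, m < 1024 → Pcm m = true := of_guard (k := 10) (by norm_num) cm_chk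
theorem sq_all : ∀ m, m < 32 → Psq m = true := of_guard (k := 5) (by norm_num) sq_chk
theorem cq_all : ∀ m, m < 160 → Pcq m = true := of_guard (k := 8) (by norm_num) cq_chk
theorem nr_all : ∀ m, m < 300 → Pnr m = true := of_guard (k := 9) (by norm_num) nr_chk
theorem hv_all : ∀ m, m < 60 → Phv m = true := of_guard (k := 6) (by norm_num) hv_chk
theorem cj_all : ∀ m, m < 1377 → Pcj m = true := of_guard (k := 11) (by norm_num) cj_chk

/-! ### The conjugacy of the involutions -/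

theorem tJ_conj {g x : GK} (hg : g ∈ G3) (hx : x ∈ G3) : IsConj (tJ x) (tJ (g * x * g⁻¹)) := by
  rw [isConj_iff]
  refine ⟨tJ g, ?_⟩
  rw [tJ_mul (G3.mul_mem hg hx) (G3.inv_mem hg), tJ_mul hg hx, tJ_inv hg]

theorem conj_x {i j : ℕ} (hi : i < 1377) (hj : j < 19) : IsConj (Bi i) (tJ (El (xC (i * 19 + j)))) := by
  rw [(x_form hi j hj).2]
  exact tJ_conj (G3.pow_mem aE_mem j) (El_mem (Val_br hi))

theorem conj_Bi_aux : ∀ r i, i < 1377 → rk i = r → IsConj (Bi i) bJ := by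
  intro r
  induction r using Nat.strong_induction_on with
  | _ r ih =>
    intro i hi hr
    have hc := cj_all i hi
    simp only [Pcj, Bool.or_eq_true, Bool.and_eq_true] at hc
    rcases hc with h0 | ⟨⟨h1, h2⟩, h3⟩
    · have h4 : i = 0 := Nat.eq_of_beq_eq_true h0
      subst h4
      have : Bi 0 = bJ := by
        show tJ (El (brC 0)) = tJ bE
        rw [br0]
        rfl
      rw [this]
    · have hk : pt i < 26163 := Nat.le_of_ble_eq_true h1
      have hlt : rk (Nat.div (pt i) 19) < rk i := Nat.le_of_ble_eq_true h2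
      have hdiv : Nat.div (piC (pt i)) 19 = i := Nat.eq_of_beq_eq_true h3
      obtain ⟨e1, hp⟩ := cl_gen_b hk
      have hdiv' : piC (pt i) / 19 = i := hdiv
      have hi' : pt i / 19 < 1377 := by omega
      have c1 : IsConj (Bi (pt i / 19)) bJ := ih _ (hr ▸ hlt) _ hi' rfl
      have c2 : IsConj (Bi (pt i / 19)) (tJ (El (xC (pt i)))) := by
        have := conj_x hi' (j := pt i % 19) (Nat.mod_lt _ (by norm_num))
        rwa [Nat.div_add_mod'] at this
      have c3 : IsConj (tJ (El (xC (pt i)))) (tJ (El (xC (piC (pt i))))) := by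
        rw [← e1]
        exact tJ_conj bE_mem (El_mem (Val_x hk))
      have c4 : IsConj (Bi i) (tJ (El (xC (piC (pt i))))) := by
        have := conj_x hi (j := piC (pt i) % 19) (Nat.mod_lt _ (by norm_num))
        have e : i * 19 + piC (pt i) % 19 = piC (pt i) := by omega
        rwa [e] at this
      exact c4.trans (c3.symm.trans (c2.symm.trans c1))

theorem conj_Bi {i : ℕ} (hi : i < 1377) : IsConj (Bi i) bJ := conj_Bi_aux _ i hi rfl

theorem invol_conj_b {y : J} (hy : orderOf y = 2) : IsConj y bJ := by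
  obtain ⟨i, j, hi, hj, rfl⟩ := invol_J hy
  refine IsConj.trans ?_ (conj_Bi hi)
  rw [isConj_comm, isConj_iff]
  exact ⟨aJ ^ j, rfl⟩

theorem invol_conj {x y : J} (hx : orderOf x = 2) (hy : orderOf y = 2) : IsConj x y :=
  (invol_conj_b hx).trans (invol_conj_b hy).symm

/-! ### The involution and its centralizer -/

/-- The involution. -/
noncomputable def tE : J := tJ zE

theorem zE_sq : zE * zE = 1 := by
  have h : mulC z0C z0C = oneC := by decide +kernel
  apply R_inj (a := oneC) _ R_one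
  rw [← h]
  exact R_mul zE_R zE_R

theorem tE_ne : tE ≠ 1 := by
  intro h
  have := nsc_false zE_mem h zE_R z0C_lt
  exact absurd this (by decide +kernel)

theorem tE_sq : tE * tE = 1 := by
  show tJ zE * tJ zE = 1
  rw [← tJ_mul zE_mem zE_mem, zE_sq, tJ_one]

theorem tE_order : orderOf tE = 2 := by
  apply orderOf_eq_prime _ tE_ne
  rw [pow_two, tE_sq]

theorem scal_cube {d : GK} (hd : d ∈ G3) (h : tJ d = 1) : d ^ 3 = 1 := by
  rcases center_cases hd ((tJ_eq_one hd).1 h) with h | h | h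
  · rw [h, one_pow]
  · rw [h, sE_cube]
  · rw [h, ← pow_two, ← pow_mul, mul_comm, pow_mul, sE_cube, one_pow]

/-- The centralizer of the involution. -/
noncomputable abbrev CC : Subgroup J := Subgroup.centralizer ({tE} : Set J)

theorem mem_CC_of {x : GK} (hx : x ∈ G3) (h : x * zE = zE * x) : tJ x ∈ CC := by
  rw [Subgroup.mem_centralizer_iff]
  rintro _ rfl
  show tJ zE * tJ x = tJ x * tJ zE
  rw [← tJ_mul zE_mem hx, ← tJ_mul hx zE_mem, h]

theorem lift_CC {c : J} (hc : c ∈ CC) : ∃ x ∈ G3, c = tJ x ∧ x * zE = zE * x := by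
  obtain ⟨x, hx, rfl⟩ := tJ_surj c
  refine ⟨x, hx, rfl, ?_⟩
  rw [Subgroup.mem_centralizer_iff] at hc
  have h1 : tJ zE * tJ x = tJ x * tJ zE := hc _ rfl
  set d : GK := x * zE * x⁻¹ * zE⁻¹ with hd
  have hdG : d ∈ G3 := G3.mul_mem (G3.mul_mem (G3.mul_mem hx zE_mem) (G3.inv_mem hx)) (G3.inv_mem zE_mem)
  have hd1 : tJ d = 1 := by
    rw [hd, tJ_mul (G3.mul_mem (G3.mul_mem hx zE_mem) (G3.inv_mem hx)) (G3.inv_mem zE_mem),
      tJ_mul (G3.mul_mem hx zE_mem) (G3.inv_mem hx), tJ_mul hx zE_mem, tJ_inv hx, tJ_inv zE_mem, ← h1]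
    group
  have hcen : d * zE = zE * d := by
    have h2 := (Subgroup.mem_center_iff.mp ((tJ_eq_one hdG).1 hd1)) ⟨zE, zE_mem⟩
    exact (congrArg Subtype.val h2).symm
  have hsq : d * d = 1 := by
    have e1 : d * zE = x * zE * x⁻¹ := by rw [hd]; group
    have e2 : (d * zE) * (d * zE) = 1 := by
      rw [e1]
      calc x * zE * x⁻¹ * (x * zE * x⁻¹) = x * (zE * zE) * x⁻¹ := by group
        _ = 1 := by rw [zE_sq]; group
    have e3 : (d * zE) * (d * zE) = d * d * (zE * zE) := by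
      calc (d * zE) * (d * zE) = d * (zE * d) * zE := by group
        _ = d * (d * zE) * zE := by rw [hcen]
        _ = d * d * (zE * zE) := by group
    rw [e3, zE_sq, mul_one] at e2
    exact e2
  have hc3 := scal_cube hdG hd1
  have hd' : d = 1 := by
    have : d ^ 3 = d * (d * d) := by rw [pow_succ, pow_two]; group
    rw [this, hsq, mul_one] at hc3
    exact hc3
  have : x * zE * x⁻¹ = zE := by
    have h3 : x * zE * x⁻¹ = d * zE := by rw [hd]; group
    rw [h3, hd', one_mul]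
  exact mul_inv_eq_iff_eq_mul.mp this

/-! ### Codes -/

/-- The elements of the extraspecial group. -/
noncomputable def qE (e : ℕ) : GK := El (qC e)
/-- The elements of the complement. -/
noncomputable def hE (i : ℕ) : GK := El (hC i)

theorem Val_q {e : ℕ} (he : e < 32) : Val (qC e) := Val_Sv (e := 4 * e) (by omega)

theorem qE_memR {e : ℕ} (he : e < 32) : qE e ∈ R₀ := Sv_memR (e := 4 * e) (by omega) (by omega)

theorem R_le_G3 : R₀ ≤ G3 := R_le_S.trans S_le_G3

theorem qE_mem {e : ℕ} (he : e < 32) : qE e ∈ G3 := R_le_G3 (qE_memR he)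

theorem R_eq {x : GK} (hx : x ∈ R₀) : ∃ e, e < 32 ∧ x = qE e := by
  rw [R₀, ← mem_toSubmonoid, closure_toSubmonoid_of_finite] at hx
  induction hx using Submonoid.closure_induction_left with
  | one =>
    exact ⟨0, by norm_num, by
      show 1 = El (Sv (Nat.mul 4 0))
      rw [show Nat.mul 4 0 = 0 from rfl, Sv_zero, El_one]⟩
  | mul_left s hs y _ ih =>
    obtain ⟨i, hi, rfl⟩ := hs
    obtain ⟨e, he, rfl⟩ := ih
    have hi' : i < 5 := hi
    have h1 := clos_all ((2 + i) * 128 + 4 * e) (by omega)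
    have d1 : Nat.div ((2 + i) * 128 + 4 * e) 128 = 2 + i := by
      show ((2 + i) * 128 + 4 * e) / 128 = 2 + i
      omega
    have d2 : Nat.mod ((2 + i) * 128 + 4 * e) 128 = 4 * e := by
      show ((2 + i) * 128 + 4 * e) % 128 = 4 * e
      omega
    simp only [Pclos, Bool.and_eq_true, d1, d2] at h1
    have h2 := cq_all (i * 32 + e) (by omega)
    have d3 : Nat.div (i * 32 + e) 32 = i := by
      show (i * 32 + e) / 32 = i
      omega
    have d4 : Nat.mod (i * 32 + e) 32 = e := by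
      show (i * 32 + e) % 32 = e
      omega
    simp only [Pcq, d3, d4] at h2
    have h3 : clT (2 + i) (4 * e) % 4 = 0 := Nat.eq_of_beq_eq_true h2
    have h4 : clT (2 + i) (4 * e) < 128 := Nat.le_of_ble_eq_true h1.2
    refine ⟨clT (2 + i) (4 * e) / 4, by omega, ?_⟩
    have h5 : 4 * (clT (2 + i) (4 * e) / 4) = clT (2 + i) (4 * e) := by omega
    show El (yC (2 + i)) * El (Sv (4 * e)) = El (Sv (4 * (clT (2 + i) (4 * e) / 4)))
    rw [h5, ← Nat.eq_of_beq_eq_true h1.1, El_mul (Val_y (by omega)) (Val_Sv (by omega))]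

theorem R_tJ_one {r : GK} (hr : r ∈ R₀) (h : tJ r = 1) : r = 1 := by
  have hG := R_le_G3 hr
  obtain ⟨e, he, hs⟩ := S_eq (R_le_S hr)
  have h2 := six_all e he
  simp only [Psix, Bool.and_eq_true, Bool.not_eq_true'] at h2
  obtain ⟨⟨⟨b2, b3⟩, b4⟩, b5⟩ := h2
  obtain ⟨s0, s1, s2, s3, s4, s5⟩ := six_eq
  rcases center_cases hG ((tJ_eq_one hG).1 h) with h3 | h3 | h3
  · exact h3
  · exfalso
    have h4 : R r zetaC := h3 ▸ zeta_R
    have h5 : Sv e = zetaC := R_fun (tb_lt _ _) (by decide +kernel) (hs ▸ El_R (Val_Sv he)) h4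
    rw [s2, ← h5] at b2
    simp at b2
  · exfalso
    have h4 : R r (mulC zetaC zetaC) := h3 ▸ R_mul zeta_R zeta_R
    have h5 : Sv e = mulC zetaC zetaC := R_fun (tb_lt _ _) (by decide +kernel) (hs ▸ El_R (Val_Sv he)) h4
    rw [s3, ← h5] at b3
    simp at b3

theorem Val_wzz {k : ℕ} (hk : k < 9) : Val (wz k) :=
  (wz_spec ⊤ (Subgroup.mem_top _) (Subgroup.mem_top _) hk).1

theorem Val_cEl {m : ℕ} (hm : m < 5760) : Val (cEl m) := by
  have h := wit_all m hm
  simp only [Pwit, letN_eq, Bool.and_eq_true] at h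
  obtain ⟨⟨⟨⟨h1, h2⟩, h3⟩, h4⟩, h5⟩ := h
  rw [Nat.eq_of_beq_eq_true h5]
  have h3' := Nat.le_of_ble_eq_true h3
  have h4' := Nat.le_of_ble_eq_true h4
  exact Val_mul (Val_V (Nat.le_of_ble_eq_true h1)) (Val_mul (Val_Sv (Nat.le_of_ble_eq_true h2))
    (Val_wzz (by show _ * 3 + _ < 9; omega)))

theorem hv {i : ℕ} (hi : i < 60) : Val (hC i) ∧ mulC (hC i) z0C = mulC z0C (hC i) := by
  have h := hv_all i hi
  simp only [Phv, Bool.and_eq_true] at h
  obtain ⟨⟨h1, h2⟩, h3⟩ := h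
  rw [Nat.eq_of_beq_eq_true h2]
  refine ⟨Val_cEl (Nat.le_of_ble_eq_true h1), ?_⟩
  rw [← Nat.eq_of_beq_eq_true h2]
  exact Nat.eq_of_beq_eq_true h3

theorem Val_h {i : ℕ} (hi : i < 60) : Val (hC i) := (hv hi).1

theorem hE_mem {i : ℕ} (hi : i < 60) : hE i ∈ G3 := El_mem (Val_h hi)

theorem hE_comm {i : ℕ} (hi : i < 60) : hE i * zE = zE * hE i := by
  apply R_inj (a := mulC (hC i) z0C) (R_mul (El_R (Val_h hi)) zE_R)
  rw [(hv hi).2]
  exact R_mul zE_R (El_R (Val_h hi))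

theorem wz_tJ {s : ℕ} (hs : s < 3) : tJ (El (wz s)) = 1 := by
  have hv := Val_wzz (k := s) (by omega)
  apply tJ_one_of_nsc (El_mem hv) (El_R hv)
  interval_cases s <;> decide +kernel

/-- Factorization of the elements of the centralizer. -/
theorem lift_dec {x : GK} (hx : x ∈ G3) (hc : x * zE = zE * x) :
    ∃ e i, e < 32 ∧ i < 60 ∧ tJ x = tJ (qE e * hE i) := by
  obtain ⟨m, hm, hR⟩ := cent_z0 hx hc
  have h := dec_all m hm
  simp only [Pdec, letN_eq, Bool.and_eq_true] at h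
  obtain ⟨⟨h1, h2⟩, h3⟩ := h
  have hs : Nat.land (decL m) 3 < 3 := Nat.le_of_ble_eq_true h1
  have hi : Nat.shiftRight (decL m) 7 < 60 := Nat.le_of_ble_eq_true h2
  have he : Nat.land (Nat.shiftRight (decL m) 2) 31 < 32 := Nat.and_lt_two_pow (n := 5) _ (by norm_num)
  refine ⟨_, _, he, hi, ?_⟩
  rw [Nat.eq_of_beq_eq_true h3] at hR
  have hW := Val_wzz (k := Nat.land (decL m) 3) (by omega)
  have hxe : x = El (wz (Nat.land (decL m) 3)) *
      (qE (Nat.land (Nat.shiftRight (decL m) 2) 31) * hE (Nat.shiftRight (decL m) 7)) := by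
    apply R_inj hR
    exact R_mul (El_R hW) (R_mul (El_R (Val_q he)) (El_R (Val_h hi)))
  rw [hxe, tJ_mul (El_mem hW) (G3.mul_mem (qE_mem he) (hE_mem hi)), wz_tJ hs, one_mul]

/-! ### The extraspecial group -/

theorem qcm {e f : ℕ} (he : e < 32) (hf : f < 32) :
    (qE e * qE f = qE f * qE e ∨ qE e * qE f = zE * (qE f * qE e)) ∧
    (qE e * qE e = 1 → qE f * qE f = 1 → qE e * qE f = qE f * qE e →
      qE e = 1 ∨ qE e = zE ∨ qE f = 1 ∨ qE f = zE ∨ qE e = qE f ∨ qE f = zE * qE e) := by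
  have h := cm_all (e * 32 + f) (by omega)
  have d3 : Nat.div (e * 32 + f) 32 = e := by
    show (e * 32 + f) / 32 = e
    omega
  have d4 : Nat.mod (e * 32 + f) 32 = f := by
    show (e * 32 + f) % 32 = f
    omega
  simp only [Pcm, letN_eq, Bool.and_eq_true, Bool.or_eq_true, d3, d4, Bool.not_eq_true'] at h
  obtain ⟨h1, h2⟩ := h
  have ve := Val_q he
  have vf := Val_q hf
  have me : qE e * qE f = El (mulC (qC e) (qC f)) := (El_mul ve vf).symm
  have mf : qE f * qE e = El (mulC (qC f) (qC e)) := (El_mul vf ve).symm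
  have lt1 : ∀ x, qC x < 2 ^ 162 := fun x => tb_lt _ _
  constructor
  · rcases h1 with h1 | h1
    · left
      rw [me, mf, Nat.eq_of_beq_eq_true h1]
    · right
      rw [me, mf, Nat.eq_of_beq_eq_true h1, El_mul Val_z0 (Val_mul vf ve)]
      rfl
  · intro a1 a2 a3
    have b1 : mulC (qC e) (qC e) = oneC := by
      apply R_fun (mulC_lt _ _) oneC_lt (x := 1) _ R_one
      rw [← a1]
      exact R_mul (El_R ve) (El_R ve)
    have b2 : mulC (qC f) (qC f) = oneC := by
      apply R_fun (mulC_lt _ _) oneC_lt (x := 1) _ R_one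
      rw [← a2]
      exact R_mul (El_R vf) (El_R vf)
    have b3 : mulC (qC e) (qC f) = mulC (qC f) (qC e) := by
      apply R_fun (mulC_lt _ _) (mulC_lt _ _) (x := qE e * qE f) (R_mul (El_R ve) (El_R vf))
      rw [a3]
      exact R_mul (El_R vf) (El_R ve)
    have t1 : Nat.beq (mulC (qC e) (qC e)) oneC = true := by rw [b1]; exact Nat.beq_refl _
    have t2 : Nat.beq (mulC (qC f) (qC f)) oneC = true := by rw [b2]; exact Nat.beq_refl _
    have t3 : Nat.beq (mulC (qC e) (qC f)) (mulC (qC f) (qC e)) = true := by rw [b3]; exact Nat.beq_refl _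
    rw [t1, t2, t3] at h2
    simp only [Bool.true_eq_false, false_or] at h2
    rcases h2 with (((((h | h) | h) | h) | h) | h)
    · left
      show El (qC e) = 1
      rw [Nat.eq_of_beq_eq_true h, El_one]
    · right; left
      show El (qC e) = El z0C
      rw [Nat.eq_of_beq_eq_true h]
    · right; right; left
      show El (qC f) = 1
      rw [Nat.eq_of_beq_eq_true h, El_one]
    · right; right; right; left
      show El (qC f) = El z0C
      rw [Nat.eq_of_beq_eq_true h]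
    · right; right; right; right; left
      show El (qC e) = El (qC f)
      rw [Nat.eq_of_beq_eq_true h]
    · right; right; right; right; right
      show El (qC f) = El z0C * El (qC e)
      rw [Nat.eq_of_beq_eq_true h, El_mul Val_z0 ve]

theorem qsq {e : ℕ} (he : e < 32) : qE e * qE e = 1 ∨ qE e * qE e = zE := by
  have h := sq_all e he
  simp only [Psq, letN_eq, Bool.or_eq_true] at h
  have ve := Val_q he
  rcases h with h | h
  · left
    show El (qC e) * El (qC e) = 1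
    rw [← El_mul ve ve, Nat.eq_of_beq_eq_true h, El_one]
  · right
    show El (qC e) * El (qC e) = El z0C
    rw [← El_mul ve ve, Nat.eq_of_beq_eq_true h]

/-- The extraspecial group. -/
noncomputable def QQ : Subgroup ↥CC where
  carrier := {c | ∃ r ∈ R₀, (c : J) = tJ r}
  mul_mem' := by
    rintro a b ⟨r, hr, ha⟩ ⟨r', hr', hb⟩
    refine ⟨r * r', R₀.mul_mem hr hr', ?_⟩
    rw [tJ_mul (R_le_G3 hr) (R_le_G3 hr'), ← ha, ← hb]
    rfl
  one_mem' := ⟨1, R₀.one_mem, tJ_one.symm⟩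
  inv_mem' := by
    rintro a ⟨r, hr, ha⟩
    refine ⟨r⁻¹, R₀.inv_mem hr, ?_⟩
    rw [tJ_inv (R_le_G3 hr), ← ha]
    rfl

theorem R_comm {r : GK} (hr : r ∈ R₀) : r * zE = zE * r := (zE_central (R_le_S hr)).symm

theorem tJ_R_mem {r : GK} (hr : r ∈ R₀) : tJ r ∈ CC := mem_CC_of (R_le_G3 hr) (R_comm hr)

theorem tJ_q_mem {e : ℕ} (he : e < 32) : tJ (qE e) ∈ CC := tJ_R_mem (qE_memR he)

/-- The elements of the extraspecial group. -/
noncomputable def qQ (e : ℕ) (he : e < 32) : QQ := ⟨⟨tJ (qE e), tJ_q_mem he⟩, qE e, qE_memR he, rfl⟩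

theorem qQ_surj (a : QQ) : ∃ e, ∃ he : e < 32, a = qQ e he := by
  obtain ⟨⟨a, ha⟩, r, hr, h⟩ := a
  obtain ⟨e, he, rfl⟩ := R_eq hr
  refine ⟨e, he, ?_⟩
  apply Subtype.ext
  apply Subtype.ext
  exact h

theorem qE_inj {e f : ℕ} (he : e < 32) (hf : f < 32) (h : tJ (qE e) = tJ (qE f)) : e = f := by
  have h1 : tJ (qE e * (qE f)⁻¹) = 1 := by
    rw [tJ_mul (qE_mem he) (G3.inv_mem (qE_mem hf)), tJ_inv (qE_mem hf), h, mul_inv_cancel]
  have h2 := R_tJ_one (R₀.mul_mem (qE_memR he) (R₀.inv_mem (qE_memR hf))) h1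
  have h3 : qE e = qE f := mul_inv_eq_one.mp h2
  have h4 := Sv_inj (a := 4 * e) (b := 4 * f) (by omega) (by omega) h3
  omega

theorem card_QQ : Nat.card QQ = 32 := by
  let f : Fin 32 → QQ := fun e => qQ e.val e.2
  have hf : Function.Bijective f := by
    constructor
    · intro a b hab
      have h1 : tJ (qE a.val) = tJ (qE b.val) := congrArg (fun x : QQ => ((x : CC) : J)) hab
      exact Fin.ext (qE_inj a.2 b.2 h1)
    · intro a
      obtain ⟨e, he, rfl⟩ := qQ_surj a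
      exact ⟨⟨e, he⟩, rfl⟩
  rw [← Nat.card_eq_of_bijective f hf]
  simp

/-- The central involution of the extraspecial group. -/
noncomputable def y₀ : QQ := ⟨⟨tE, tJ_R_mem zE_memR⟩, zE, zE_memR, rfl⟩

theorem qQ_val (e : ℕ) (he : e < 32) : ((qQ e he : CC) : J) = tJ (qE e) := rfl

theorem y₀_ne : y₀ ≠ 1 := by
  intro h
  exact tE_ne (congrArg (fun x : QQ => ((x : CC) : J)) h)

theorem QQ_ext {a b : QQ} (h : ((a : CC) : J) = ((b : CC) : J)) : a = b :=
  Subtype.ext (Subtype.ext h)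

theorem comm_Q (a b : QQ) : a * b * a⁻¹ * b⁻¹ = 1 ∨ a * b * a⁻¹ * b⁻¹ = y₀ := by
  obtain ⟨e, he, rfl⟩ := qQ_surj a
  obtain ⟨f, hf, rfl⟩ := qQ_surj b
  rcases (qcm he hf).1 with h | h
  · left
    apply QQ_ext
    show tJ (qE e) * tJ (qE f) * (tJ (qE e))⁻¹ * (tJ (qE f))⁻¹ = 1
    rw [← tJ_mul (qE_mem he) (qE_mem hf), h, tJ_mul (qE_mem hf) (qE_mem he)]
    group
  · right
    apply QQ_ext
    show tJ (qE e) * tJ (qE f) * (tJ (qE e))⁻¹ * (tJ (qE f))⁻¹ = tJ zE
    rw [← tJ_mul (qE_mem he) (qE_mem hf), h, tJ_mul zE_mem (G3.mul_mem (qE_mem hf) (qE_mem he)),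
      tJ_mul (qE_mem hf) (qE_mem he)]
    group

theorem sq_Q (a : QQ) : a ^ 2 = 1 ∨ a ^ 2 = y₀ := by
  obtain ⟨e, he, rfl⟩ := qQ_surj a
  rcases qsq he with h | h
  · left
    apply QQ_ext
    show tJ (qE e) ^ 2 = 1
    rw [pow_two, ← tJ_mul (qE_mem he) (qE_mem he), h, tJ_one]
  · right
    apply QQ_ext
    show tJ (qE e) ^ 2 = tJ zE
    rw [pow_two, ← tJ_mul (qE_mem he) (qE_mem he), h]

theorem comm_lift {e f : ℕ} (he : e < 32) (hf : f < 32) (h : tJ (qE e) * tJ (qE f) = tJ (qE f) * tJ (qE e)) :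
    qE e * qE f = qE f * qE e := by
  rcases (qcm he hf).1 with h1 | h1
  · exact h1
  · exfalso
    apply tE_ne
    rw [← tJ_mul (qE_mem he) (qE_mem hf), h1, tJ_mul zE_mem (G3.mul_mem (qE_mem hf) (qE_mem he)),
      tJ_mul (qE_mem hf) (qE_mem he)] at h
    exact mul_eq_right.mp h

theorem cen_Q (a : QQ) (ha : ∀ b : QQ, a * b = b * a) : a = 1 ∨ a = y₀ := by
  obtain ⟨e, he, rfl⟩ := qQ_surj a
  have h1 : ∀ i, i < 5 → qE e * El (yC (2 + i)) = El (yC (2 + i)) * qE e := by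
    intro i hi
    obtain ⟨f, hf, h2⟩ := R_eq (gen_memR hi)
    rw [h2]
    apply comm_lift he hf
    exact congrArg (fun x : QQ => ((x : CC) : J)) (ha (qQ f hf))
  rcases six_cases (R_le_S (qE_memR he)) h1 with h | h
  · left
    apply QQ_ext
    show tJ (qE e) = 1
    rw [h, tJ_one]
  · right
    apply QQ_ext
    show tJ (qE e) = tJ zE
    rw [h]

theorem non_Q : ∃ a b : QQ, a * b * a⁻¹ * b⁻¹ ≠ 1 := by
  refine ⟨qQ 1 (by norm_num), qQ 2 (by norm_num), ?_⟩
  intro h
  have h1 : mulC (qC 1) (qC 2) ≠ mulC (qC 2) (qC 1) := by decide +kernel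
  apply h1
  have h2 : qQ 1 (by norm_num) * qQ 2 (by norm_num) = qQ 2 (by norm_num) * qQ 1 (by norm_num) := by
    have h3 := mul_inv_eq_one.mp h
    exact mul_inv_eq_iff_eq_mul.mp h3
  have h4 := comm_lift (e := 1) (f := 2) (by norm_num) (by norm_num)
    (congrArg (fun x : QQ => ((x : CC) : J)) h2)
  apply R_fun (mulC_lt _ _) (mulC_lt _ _) (x := qE 1 * qE 2) (R_mul (El_R (Val_q (by norm_num))) (El_R (Val_q (by norm_num))))
  rw [h4]
  exact R_mul (El_R (Val_q (by norm_num))) (El_R (Val_q (by norm_num)))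

instance : Finite J := by
  infer_instance

theorem extra_Q : IsExtraspecial 2 QQ := by
  haveI : Fact (Nat.Prime 2) := ⟨Nat.prime_two⟩
  haveI : Finite QQ := Nat.finite_of_card_ne_zero (by rw [card_QQ]; norm_num)
  refine Cfsg.Agent.Lib.LargeQuot.extraspecial_of_elements ?_ y₀ y₀_ne comm_Q sq_Q cen_Q non_Q
  apply IsPGroup.of_card (n := 5)
  rw [card_QQ]
  norm_num

/-- A pair of commuting involutions of the extraspecial group. -/
theorem elem_pair (a b : QQ) (ha : a ^ 2 = 1) (hb : b ^ 2 = 1) (hab : a * b = b * a) :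
    a = 1 ∨ a = y₀ ∨ b = 1 ∨ b = y₀ ∨ a = b ∨ b = y₀ * a := by
  obtain ⟨e, he, rfl⟩ := qQ_surj a
  obtain ⟨f, hf, rfl⟩ := qQ_surj b
  have sq : ∀ {g : ℕ} (hg : g < 32), (qQ g hg) ^ 2 = 1 → qE g * qE g = 1 := by
    intro g hg h
    apply R_tJ_one (R₀.mul_mem (qE_memR hg) (qE_memR hg))
    have h1 : tJ (qE g) ^ 2 = 1 := congrArg (fun x : QQ => ((x : CC) : J)) h
    rwa [pow_two, ← tJ_mul (qE_mem hg) (qE_mem hg)] at h1
  have hc := comm_lift he hf (congrArg (fun x : QQ => ((x : CC) : J)) hab)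
  rcases (qcm he hf).2 (sq he ha) (sq hf hb) hc with h | h | h | h | h | h
  · left
    apply QQ_ext
    show tJ (qE e) = 1
    rw [h, tJ_one]
  · right; left
    apply QQ_ext
    show tJ (qE e) = tJ zE
    rw [h]
  · right; right; left
    apply QQ_ext
    show tJ (qE f) = 1
    rw [h, tJ_one]
  · right; right; right; left
    apply QQ_ext
    show tJ (qE f) = tJ zE
    rw [h]
  · right; right; right; right; left
    apply QQ_ext
    show tJ (qE e) = tJ (qE f)
    rw [h]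
  · right; right; right; right; right
    apply QQ_ext
    show tJ (qE f) = tJ zE * tJ (qE e)
    rw [h, tJ_mul zE_mem (qE_mem he)]

theorem card_elem (E : Subgroup QQ) (hE' : IsElementaryAbelian 2 E) : Nat.card E ≤ 2 ^ 2 := by
  classical
  obtain ⟨hc, hp⟩ := hE'
  haveI := hc
  have key : ∃ a : QQ, ∀ b ∈ E, b = 1 ∨ b = y₀ ∨ b = a ∨ b = y₀ * a := by
    by_cases h : ∃ a ∈ E, a ≠ 1 ∧ a ≠ y₀
    · obtain ⟨a, ha, h1, h2⟩ := h
      refine ⟨a, fun b hb => ?_⟩
      have hcomm : a * b = b * a := by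
        have := mul_comm' (⟨a, ha⟩ : E) (⟨b, hb⟩ : E)
        exact congrArg Subtype.val this
      rcases elem_pair a b (hp a ha) (hp b hb) hcomm with h | h | h | h | h | h
      · exact absurd h h1
      · exact absurd h h2
      · exact Or.inl h
      · exact Or.inr (Or.inl h)
      · exact Or.inr (Or.inr (Or.inl h.symm))
      · exact Or.inr (Or.inr (Or.inr h))
    · push Not at h
      refine ⟨1, fun b hb => ?_⟩
      by_cases h1 : b = 1
      · exact Or.inl h1
      · exact Or.inr (Or.inl (h b hb h1))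
  obtain ⟨a, ha⟩ := key
  haveI : Finite QQ := Nat.finite_of_card_ne_zero (by rw [card_QQ]; norm_num)
  have hsub : (E : Set QQ) ⊆ (({1, y₀, a, y₀ * a} : Finset QQ) : Set QQ) := by
    intro b hb
    simpa using ha b hb
  have h1 : Nat.card E = (E : Set QQ).ncard := (Nat.card_coe_set_eq _).symm
  rw [h1]
  calc (E : Set QQ).ncard ≤ ((({1, y₀, a, y₀ * a} : Finset QQ) : Set QQ)).ncard :=
        Set.ncard_le_ncard hsub (Finset.finite_toSet _)
    _ = ({1, y₀, a, y₀ * a} : Finset QQ).card := Set.ncard_coe_finset _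
    _ ≤ 4 := Finset.card_le_four
    _ = 2 ^ 2 := by norm_num

/-! ### Normality -/

theorem nr {i j : ℕ} (hi : i < 60) (hj : j < 5) :
    ∃ e, e < 32 ∧ hE i * El (yC (2 + j)) = qE e * hE i := by
  have h := nr_all (i * 5 + j) (by omega)
  have d3 : Nat.div (i * 5 + j) 5 = i := by
    show (i * 5 + j) / 5 = i
    omega
  have d4 : Nat.mod (i * 5 + j) 5 = j := by
    show (i * 5 + j) % 5 = j
    omega
  simp only [Pnr, Bool.and_eq_true, d3, d4] at h
  obtain ⟨h1, h2⟩ := h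
  have he : nL i j < 32 := Nat.le_of_ble_eq_true h1
  refine ⟨_, he, ?_⟩
  show hE i * El (yC (2 + j)) = qE _ * hE i
  unfold hE qE
  rw [← El_mul (Val_h hi) (Val_y (by omega)), ← El_mul (Val_q he) (Val_h hi), ← Nat.eq_of_beq_eq_true h2]
  rfl

theorem h_conj_R {i : ℕ} (hi : i < 60) {r : GK} (hr : r ∈ R₀) : hE i * r * (hE i)⁻¹ ∈ R₀ := by
  have h : R₀ ≤ R₀.comap (MulAut.conj (hE i)).toMonoidHom := by
    conv_lhs => rw [R₀]
    rw [closure_le]
    rintro _ ⟨j, hj, rfl⟩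
    obtain ⟨e, he, h⟩ := nr hi (j := j) hj
    show hE i * El (yC (2 + j)) * (hE i)⁻¹ ∈ R₀
    rw [h, mul_inv_cancel_right]
    exact qE_memR he
  exact h hr

theorem QQ_normal : QQ.Normal := by
  constructor
  rintro n ⟨r, hr, hn⟩ ⟨g, hg⟩
  obtain ⟨x, hx, rfl, hc⟩ := lift_CC hg
  obtain ⟨e, i, he, hi, hd⟩ := lift_dec hx hc
  refine ⟨qE e * (hE i * r * (hE i)⁻¹) * (qE e)⁻¹, R₀.mul_mem (R₀.mul_mem (qE_memR he) (h_conj_R hi hr))
    (R₀.inv_mem (qE_memR he)), ?_⟩
  have hq := qE_mem he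
  have hh := hE_mem hi
  have hrG := R_le_G3 hr
  show tJ x * (n : J) * (tJ x)⁻¹ = _
  rw [hn, hd, tJ_mul (G3.mul_mem hq (G3.mul_mem (G3.mul_mem hh hrG) (G3.inv_mem hh))) (G3.inv_mem hq),
    tJ_mul hq (G3.mul_mem (G3.mul_mem hh hrG) (G3.inv_mem hh)), tJ_mul (G3.mul_mem hh hrG) (G3.inv_mem hh),
    tJ_mul hh hrG, tJ_inv hh, tJ_inv hq, tJ_mul hq hh]
  group

/-! ### The complement -/

theorem hA_lt (σ : A5) : idxP (pcode σ.val) < 60 := a5_lt σ

theorem Val_hA (σ : A5) : Val (hA σ) := Val_h (hA_lt σ)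

/-- The map from the alternating group to the centralizer. -/
noncomputable def phi : A5 →* ↥CC where
  toFun σ := ⟨tJ (El (hA σ)), mem_CC_of (hE_mem (hA_lt σ)) (hE_comm (hA_lt σ))⟩
  map_one' := by
    apply Subtype.ext
    show tJ (El (hA 1)) = 1
    rw [a5_one, El_one, tJ_one]
  map_mul' := by
    intro σ τ
    apply Subtype.ext
    show tJ (El (hA (σ * τ))) = tJ (El (hA σ)) * tJ (El (hA τ))
    rw [← a5_mul, El_mul (Val_hA σ) (Val_hA τ), tJ_mul (El_mem (Val_hA σ)) (El_mem (Val_hA τ))]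

theorem phi_val (σ : A5) : ((phi σ : CC) : J) = tJ (El (hA σ)) := rfl

theorem phi_key (σ : A5) (h : phi σ ∈ QQ) : σ = 1 := by
  by_contra hne
  obtain ⟨r, hr, h1⟩ := h
  obtain ⟨e, he, rfl⟩ := R_eq hr
  rw [phi_val] at h1
  have hv := Val_hA σ
  have hm := El_mem hv
  have hq := qE_mem he
  have h2 : tJ (El (hA σ) * (qE e)⁻¹) = 1 := by
    rw [tJ_mul hm (G3.inv_mem hq), tJ_inv hq, h1, mul_inv_cancel]
  have h3 := center_cases (G3.mul_mem hm (G3.inv_mem hq)) ((tJ_eq_one (G3.mul_mem hm (G3.inv_mem hq))).1 h2)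
  have hs : ∃ s : Fin 3, El (hA σ) * (qE e)⁻¹ = El (wz s) := by
    obtain ⟨s0, s1, s2, -⟩ := wz_eq
    rcases h3 with h3 | h3 | h3
    · exact ⟨0, by rw [h3]; show 1 = El (wz 0); rw [s0, El_one]⟩
    · exact ⟨1, by rw [h3]; show sE = El (wz 1); rw [s1, El_zeta]⟩
    · exact ⟨2, by rw [h3]; show sE * sE = El (wz 2); rw [s2, El_mul Val_zeta Val_zeta, El_zeta]⟩
  obtain ⟨s, hs⟩ := hs
  have h4 : El (hA σ) = El (wz s) * qE e := mul_inv_eq_iff_eq_mul.mp hs
  have h5 : hA σ = mulC (wz s) (qC e) := by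
    have h6 : R (El (hA σ)) (mulC (wz s) (qC e)) := by
      rw [h4]
      exact R_mul (El_R (Val_wzz (k := s) (by omega))) (El_R (Val_q he))
    exact R_fun (tb_lt _ _) (mulC_lt _ _) (El_R hv) h6
  exact a5_disj σ hne ⟨e, he⟩ s h5

theorem dec_CC (g : ↥CC) : ∃ q ∈ QQ, ∃ σ : A5, g = q * phi σ := by
  obtain ⟨g, hg⟩ := g
  obtain ⟨x, hx, rfl, hc⟩ := lift_CC hg
  obtain ⟨e, i, he, hi, hd⟩ := lift_dec hx hc
  obtain ⟨σ, hσ⟩ := a5_surj ⟨i, hi⟩
  refine ⟨(qQ e he : CC), (qQ e he).2, σ, ?_⟩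
  apply Subtype.ext
  show tJ x = tJ (qE e) * tJ (El (hA σ))
  rw [hd, tJ_mul (qE_mem he) (hE_mem hi)]
  have : hA σ = hC i := by
    show hC (idxP (pcode σ.val)) = hC i
    rw [hσ]
  rw [this]
  rfl

theorem phi_ker : Function.Injective phi := by
  intro σ τ h
  have h1 : phi (σ⁻¹ * τ) = 1 := by
    rw [map_mul, map_inv, h, inv_mul_cancel]
  have h2 := phi_key (σ⁻¹ * τ) (by rw [h1]; exact QQ.one_mem)
  exact (inv_mul_eq_one.mp h2)

theorem compl : QQ.IsComplement' phi.range := by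
  apply Subgroup.isComplement'_of_disjoint_and_mul_eq_univ
  · rw [Subgroup.disjoint_def]
    rintro x hx ⟨σ, rfl⟩
    rw [phi_key σ hx, map_one]
  · ext g
    simp only [Set.mem_univ, iff_true]
    obtain ⟨q, hq, σ, rfl⟩ := dec_CC g
    exact Set.mem_mul.mpr ⟨q, hq, phi σ, ⟨σ, rfl⟩, rfl⟩

instance : QQ.Normal := QQ_normal

theorem quot_iso : Nonempty (↥CC ⧸ QQ ≃* A5) := by
  let f : A5 →* ↥CC ⧸ QQ := (QuotientGroup.mk' QQ).comp phi
  have hf : Function.Bijective f := by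
    constructor
    · rw [injective_iff_map_eq_one]
      intro σ h
      apply phi_key
      exact (QuotientGroup.eq_one_iff _).1 h
    · intro y
      obtain ⟨g, rfl⟩ := QuotientGroup.mk'_surjective QQ y
      obtain ⟨q, hq, σ, rfl⟩ := dec_CC g
      refine ⟨σ, ?_⟩
      show (QuotientGroup.mk' QQ) (phi σ) = (QuotientGroup.mk' QQ) (q * phi σ)
      rw [map_mul]
      have h7 : (QuotientGroup.mk' QQ) q = 1 := (QuotientGroup.eq_one_iff q).2 hq
      rw [h7, one_mul]
  exact ⟨(MulEquiv.ofBijective f hf).symm⟩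

/-- The main statement in the model. -/
theorem main : (∀ x y : J, orderOf x = 2 → orderOf y = 2 → IsConj x y) ∧ ∃ t : J, orderOf t = 2 ∧
    ∃ (Q : Subgroup ↥(Subgroup.centralizer ({t} : Set J))) (_ : Q.Normal), IsExtraspecial 2 Q ∧ Nat.card Q = 32 ∧
      (∀ E : Subgroup Q, IsElementaryAbelian 2 E → Nat.card E ≤ 2 ^ 2) ∧
      (∃ H : Subgroup ↥(Subgroup.centralizer ({t} : Set J)), Q.IsComplement' H) ∧
      Nonempty (↥(Subgroup.centralizer ({t} : Set J)) ⧸ Q ≃* ↥(alternatingGroup (Fin 5))) :=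
  ⟨fun _ _ hx hy => invol_conj hx hy, tE, tE_order, QQ, QQ_normal, extra_Q, card_QQ, card_elem, ⟨_, compl⟩, quot_iso⟩

end Cfsg.Agent.Lib.J3Cent
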