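import Mathlib
import Cfsg.Prelude.Def_JComponents
import Cfsg.Agent.Lib.CharPLocal

/-!
# Basic lemmas on `J(T)`-components
-/

set_option autoImplicit false

open Cfsg
open scoped commutatorElement

namespace Cfsg.Agent.Lib.JCompBasic

open Cfsg.Agent.Lib.CharPLocal

variable {G : Type*} [Group G]

/-- The Thompson subgroup of `T` lies in `T`. -/
theorem thompsonSubgroupOf_le (p : ℕ) (T : Subgroup G) : thompsonSubgroupOf p T ≤ T :=
  Subgroup.map_subtype_le _

/-- `K = [K, J]` forces `J` to normalize `K`. -/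
theorem le_normalizer_of_commutator_eq {K J : Subgroup G} (h : ⁅K, J⁆ = K) :
    J ≤ Subgroup.normalizer (K : Set G) := by
  intro j hj
  rw [Subgroup.mem_normalizer_iff]
  have hcomm : ⁅J, K⁆ = K := by rw [Subgroup.commutator_comm]; exact h
  intro k
  constructor
  · intro hk
    rw [← hcomm] at hk ⊢
    exact conj_mem_commutator_left hj hk
  · intro hk
    rw [← hcomm] at hk ⊢
    have := conj_mem_commutator_left (J.inv_mem hj) hk
    have e : j⁻¹ * (j * k * j⁻¹) * j⁻¹⁻¹ = k := by group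
    rwa [e] at this

/-- If `J` normalizes `K` and `J` is a `p`-group, every element of `K ⊔ J` of order prime to `p` lies in `K`. -/
theorem mem_of_coprime_of_mem_sup [Finite G] {p : ℕ} [hp : Fact p.Prime] {K J : Subgroup G}
    (hJK : J ≤ Subgroup.normalizer (K : Set G)) (hJ : IsPGroup p J) {n : G} (hn : n ∈ K ⊔ J)
    (hc : (orderOf n).Coprime p) : n ∈ K := by
  -- `n = k j`
  have hn' : n ∈ ((K ⊔ J : Subgroup G) : Set G) := hn
  rw [Subgroup.coe_mul_of_right_le_normalizer_left K J hJK] at hn'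
  obtain ⟨k, hk, j, hj, rfl⟩ := hn'
  have hpow : ∀ t : ℕ, ∃ k' ∈ K, (k * j) ^ t = k' * j ^ t := by
    intro t
    induction t with
    | zero => exact ⟨1, K.one_mem, by simp⟩
    | succ t ih =>
      obtain ⟨k', hk', he⟩ := ih
      have hjt : j ^ t ∈ Subgroup.normalizer (K : Set G) := Subgroup.pow_mem _ (hJK hj) t
      refine ⟨k' * (j ^ t * k * (j ^ t)⁻¹), K.mul_mem hk' ((Subgroup.mem_normalizer_iff.mp hjt k).mp hk), ?_⟩
      rw [pow_succ, he]
      group
  obtain ⟨a, ha⟩ := hJ ⟨j, hj⟩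
  have ha' : j ^ p ^ a = 1 := by
    have := congrArg Subtype.val ha
    simpa using this
  obtain ⟨k', hk', he⟩ := hpow (p ^ a)
  rw [ha', mul_one] at he
  have hc' : (p ^ a).Coprime (orderOf (k * j)) := (Nat.Coprime.pow_left a hc.symm)
  obtain ⟨b, hb⟩ := exists_pow_eq_self_of_coprime hc'
  show k * j ∈ K
  rw [← hb, he]
  exact K.pow_mem hk' b

end Cfsg.Agent.Lib.JCompBasic
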