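import Mathlib
import Cfsg.Agent.Lib.FpfAction

/-!
# Abelian `p'`-groups with a fixed-point-free `p`-group of automorphisms, acting on `𝔽_p`-modules

`yy_trick`: the trace of a symmetric element of the group ring of `Z` detects a fixed vector.
`no_trace`: the trace of an action without fixed points does not vanish on a fixed vector.
-/

set_option autoImplicit false

namespace Cfsg.Agent.Lib.JConfig1

open Cfsg.Agent.Lib.FpfAction

variable {W : Type*} [AddCommGroup W] {p : ℕ} [hp : Fact p.Prime]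

theorem sum_apply_end {ι : Type*} (s : Finset ι) (f : ι → AddMonoid.End W) (x : W) :
    (∑ i ∈ s, f i) x = ∑ i ∈ s, f i x :=
  AddMonoidHom.finsetSum_apply _ _ _

theorem sum_pow_char {R ι : Type*} [Ring R] [CharP R p] (s : Finset ι) (f : ι → R)
    (hc : ∀ i j, Commute (f i) (f j)) (k : ℕ) :
    (∑ i ∈ s, f i) ^ (p ^ k) = ∑ i ∈ s, (f i) ^ (p ^ k) := by
  classical
  induction s using Finset.induction_on with
  | empty =>
    simp only [Finset.sum_empty]
    exact zero_pow (pow_ne_zero _ hp.out.ne_zero)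
  | insert a s ha ih =>
    rw [Finset.sum_insert ha, Finset.sum_insert ha, add_pow_char_pow_of_commute p k, ih]
    exact Commute.sum_right _ _ _ (fun j _ => hc a j)

theorem charP_end (hpW : ∀ w : W, p • w = 0) {x : W} (hx : x ≠ 0) : CharP (AddMonoid.End W) p := by
  constructor
  intro n
  constructor
  · intro h
    have h1 := congrArg (fun f : AddMonoid.End W => f x) h
    simp only [AddMonoid.End.natCast_apply] at h1
    have h2 : (n : AddMonoid.End W) x = n • x := AddMonoid.End.natCast_apply n x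
    have h3 : n • x = 0 := h1
    have h4 : addOrderOf x = p := addOrderOf_eq_prime (hpW x) hx
    rw [← h4]
    exact addOrderOf_dvd_of_nsmul_eq_zero h3
  · rintro ⟨k, rfl⟩
    refine AddMonoidHom.ext fun w => ?_
    have h1 : ((p * k : ℕ) : AddMonoid.End W) w = (p * k) • w := AddMonoid.End.natCast_apply _ _
    refine h1.trans ?_
    rw [mul_comm, mul_nsmul, hpW]
    rfl

section Traces

variable {Γ Z : Type*} [Group Γ] [Fintype Γ] [CommGroup Z] [Fintype Z]
  (m : Z →* AddMonoid.End W) (φ : Γ →* MulAut Z)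

/-- The trace of `z`. -/
noncomputable def yy (z : Z) : AddMonoid.End W := ∑ g : Γ, m (φ g z)

omit [Fintype Z] in
theorem m_comm (a b : Z) : Commute (m a) (m b) := by
  show m a * m b = m b * m a
  rw [← map_mul, ← map_mul, mul_comm]

omit [Fintype Z] in
theorem yy_comm (z w : Z) : Commute (yy m φ z) (yy m φ w) := by
  refine Commute.sum_left _ _ _ (fun g _ => ?_)
  exact Commute.sum_right _ _ _ (fun h _ => m_comm m _ _)

omit [Fintype Z] in
theorem yy_mul (z w : Z) : yy m φ z * yy m φ w = ∑ e : Γ, yy m φ (z * φ e w) := by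
  unfold yy
  rw [Finset.sum_mul_sum]
  calc ∑ g : Γ, ∑ h : Γ, m (φ g z) * m (φ h w)
      = ∑ g : Γ, ∑ e : Γ, m (φ g z) * m (φ (g * e) w) := by
        refine Finset.sum_congr rfl (fun g _ => ?_)
        exact (Equiv.sum_comp (Equiv.mulLeft g) (fun h => m (φ g z) * m (φ h w))).symm
    _ = ∑ e : Γ, ∑ g : Γ, m (φ g z) * m (φ (g * e) w) := Finset.sum_comm
    _ = ∑ e : Γ, ∑ g : Γ, m (φ g (z * φ e w)) := by
        refine Finset.sum_congr rfl (fun e _ => Finset.sum_congr rfl (fun g _ => ?_))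
        rw [map_mul, map_mul, ← map_mul m]
        rfl

omit [Fintype Z] in
theorem yy_pow [CharP (AddMonoid.End W) p] (k : ℕ) (hk : ∀ z : Z, z ^ (p ^ k) = z) (z : Z) :
    (yy m φ z) ^ (p ^ k) = yy m φ z := by
  unfold yy
  rw [sum_pow_char (p := p) _ _ (fun i j => m_comm m _ _)]
  refine Finset.sum_congr rfl (fun g _ => ?_)
  rw [← map_pow, hk]

/-- The symmetric elements suffice. -/
theorem yy_trick (hpW : ∀ w : W, p • w = 0) (hp2 : p ≠ 2) (hZ : (Fintype.card Z).Coprime p) (x : W)
    (h : ∀ z : Z, (yy m φ z + yy m φ z⁻¹) x = 0) (z : Z) : yy m φ z x = 0 := by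
  classical
  by_cases hx : x = 0
  · rw [hx, map_zero]
  have : CharP (AddMonoid.End W) p := charP_end hpW hx
  -- the exponent
  set k := (Fintype.card Z).totient with hkdef
  have hk0 : 0 < k := Nat.totient_pos.mpr Fintype.card_pos
  have hk : ∀ z : Z, z ^ (p ^ k) = z := by
    intro w
    have h1 : p ^ k ≡ 1 [MOD Fintype.card Z] := Nat.ModEq.pow_totient hZ.symm
    calc w ^ (p ^ k) = w ^ (p ^ k % Fintype.card Z) := (pow_mod_card w _).symm
      _ = w ^ (1 % Fintype.card Z) := by rw [show p ^ k % Fintype.card Z = 1 % Fintype.card Z from h1]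
      _ = w ^ 1 := pow_mod_card w 1
      _ = w := pow_one w
  set y := yy m φ z with hy
  set y' := yy m φ z⁻¹ with hy'
  have hcomm : Commute y y' := yy_comm m φ _ _
  -- `(y² + y'²) x = 0`
  have h2 : (y * y + y' * y') x = 0 := by
    rw [hy, hy', yy_mul, yy_mul, ← Finset.sum_add_distrib]
    show (∑ e : Γ, (yy m φ (z * φ e z) + yy m φ (z⁻¹ * φ e z⁻¹))) x = 0
    rw [sum_apply_end]
    refine Finset.sum_eq_zero (fun e _ => ?_)
    have h3 : z⁻¹ * φ e z⁻¹ = (z * φ e z)⁻¹ := by
      rw [map_inv, mul_inv]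
    rw [h3]
    exact h _
  set s := y + y' with hs
  set d := y - y' with hd
  have hsx : s x = 0 := h z
  have hdd : d * d + s * s = y * y + y' * y' + (y * y + y' * y') := by
    rw [hs, hd]
    have e1 : y' * y = y * y' := hcomm.symm.eq
    simp only [mul_add, add_mul, mul_sub, sub_mul, e1]
    abel
  have hd2x : (d * d) x = 0 := by
    have e1 : (d * d + s * s) x = 0 := by
      rw [hdd]
      show (y * y + y' * y') x + (y * y + y' * y') x = 0
      rw [h2, add_zero]
    have e2 : (s * s) x = 0 := by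
      show s (s x) = 0
      rw [hsx, map_zero]
    have e3 : (d * d + s * s) x = (d * d) x + (s * s) x := rfl
    rw [e3, e2, add_zero] at e1
    exact e1
  have hdQ : d ^ (p ^ k) = d := by
    rw [hd, sub_pow_char_pow_of_commute p k hcomm, yy_pow m φ k hk, yy_pow m φ k hk]
  have hQ2 : 2 ≤ p ^ k := by
    calc 2 ≤ p := hp.out.two_le
      _ = p ^ 1 := (pow_one p).symm
      _ ≤ p ^ k := Nat.pow_le_pow_right hp.out.pos hk0
  have hdx : d x = 0 := by
    have e1 : d ^ (p ^ k) = d ^ (p ^ k - 2) * (d * d) := by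
      rw [← pow_two, ← pow_add, Nat.sub_add_cancel hQ2]
    have e2 : (d ^ (p ^ k)) x = (d ^ (p ^ k - 2)) ((d * d) x) := by
      rw [e1]; rfl
    rw [hdQ, hd2x, map_zero] at e2
    exact e2
  -- conclude
  have e4 : (2 : ℕ) • (y x) = s x + d x := by
    rw [hs, hd]
    show (2 : ℕ) • (y x) = (y x + y' x) + (y x - y' x)
    rw [two_nsmul]
    abel
  rw [hsx, hdx, add_zero] at e4
  have hco : Nat.Coprime 2 p := (Nat.coprime_primes Nat.prime_two hp.out).mpr (Ne.symm hp2)
  have e5 : ((2 : ℤ) * Nat.gcdA 2 p + p * Nat.gcdB 2 p) = 1 := by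
    have := Nat.gcd_eq_gcd_ab 2 p
    rw [hco] at this
    exact_mod_cast this.symm
  have e6 : (2 : ℤ) • (y x) = 0 := by
    rw [show (2 : ℤ) = ((2 : ℕ) : ℤ) from rfl, natCast_zsmul]; exact e4
  have e7 : (p : ℤ) • (y x) = 0 := by
    rw [natCast_zsmul]; exact hpW _
  calc y x = (1 : ℤ) • (y x) := (one_smul _ _).symm
    _ = ((2 : ℤ) * Nat.gcdA 2 p + p * Nat.gcdB 2 p) • (y x) := by rw [e5]
    _ = Nat.gcdA 2 p • ((2 : ℤ) • (y x)) + Nat.gcdB 2 p • ((p : ℤ) • (y x)) := by
        rw [add_smul, mul_comm, mul_smul, mul_comm (p : ℤ), mul_smul]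
    _ = 0 := by rw [e6, e7, smul_zero, smul_zero, add_zero]

/-- A vector without `Z`-fixed part is moved; the trace is not zero on a fixed vector. -/
theorem no_trace (hpW : ∀ w : W, p • w = 0) (hZ : (Fintype.card Z).Coprime p)
    (hfpf : ∀ g : Γ, g ≠ 1 → ∀ z : Z, φ g z = z → z = 1) (x : W) (hx0 : x ≠ 0)
    (hT : ∑ z : Z, m z x = 0) (h : ∀ z : Z, yy m φ z x = 0) : False := by
  classical
  let T : W →+ W := AddMonoidHom.mk' (fun w => ∑ z : Z, m z w) (by
    intro a b
    simp only [map_add, Finset.sum_add_distrib])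
  have hTdef : ∀ w, T w = ∑ z : Z, m z w := fun _ => rfl
  have hmul : ∀ a b w, m (a * b) w = m a (m b w) := by
    intro a b w
    rw [map_mul]; rfl
  have hone : ∀ w, m 1 w = w := by
    intro w
    rw [map_one]; rfl
  have hTm : ∀ c w, T (m c w) = T w := by
    intro c w
    rw [hTdef, hTdef]
    simp only [← hmul]
    exact Equiv.sum_comp (Equiv.mulRight c) (fun z => m z w)
  let B : AddSubgroup W := T.ker
  have hmemB : ∀ w, w ∈ B ↔ T w = 0 := fun w => AddMonoidHom.mem_ker
  have hBm : ∀ c w, w ∈ B → m c w ∈ B := by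
    intro c w hw
    rw [hmemB] at hw ⊢
    rw [hTm, hw]
  let m' : Z →* AddMonoid.End B :=
    { toFun := fun c => AddMonoidHom.codRestrict ((m c).comp B.subtype) B (fun w => hBm c w w.2)
      map_one' := by
        refine AddMonoidHom.ext fun w => Subtype.ext ?_
        exact hone w
      map_mul' := by
        intro a b
        refine AddMonoidHom.ext fun w => Subtype.ext ?_
        exact hmul a b w }
  have hm' : ∀ c (w : B), ((m' c w : B) : W) = m c w := fun _ _ => rfl
  have hsep : ∀ i ∈ (Finset.univ : Finset Γ), ∀ j ∈ (Finset.univ : Finset Γ), i ≠ j → ∀ v : B, v ≠ 0 →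
      ∃ w, m' (φ i w) v ≠ m' (φ j w) v := by
    intro i _ j _ hij v hv
    -- an element moving `v`
    have hc₀ : ∃ c₀ : Z, m c₀ v ≠ v := by
      by_contra hcon
      push Not at hcon
      have h1 : T v = Fintype.card Z • (v : W) := by
        rw [hTdef]
        simp [hcon]
      have h2 : T v = 0 := (hmemB v).mp v.2
      rw [h2] at h1
      have h3 : ((v : W)) = 0 := by
        have h4 : ((Fintype.card Z : ℤ) * Nat.gcdA (Fintype.card Z) p + (p : ℤ) * Nat.gcdB (Fintype.card Z) p) = 1 := by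
          have := Nat.gcd_eq_gcd_ab (Fintype.card Z) p
          rw [hZ] at this
          simpa using this.symm
        have e1 : (Fintype.card Z : ℤ) • (v : W) = 0 := by rw [natCast_zsmul, ← h1]
        have e2 : (p : ℤ) • (v : W) = 0 := by rw [natCast_zsmul, hpW]
        calc (v : W) = (1 : ℤ) • (v : W) := (one_smul _ _).symm
          _ = ((Fintype.card Z : ℤ) * Nat.gcdA (Fintype.card Z) p + (p : ℤ) * Nat.gcdB (Fintype.card Z) p) • (v : W) := by rw [h4]
          _ = Nat.gcdA (Fintype.card Z) p • ((Fintype.card Z : ℤ) • (v : W)) + Nat.gcdB (Fintype.card Z) p • ((p : ℤ) • (v : W)) := by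
            rw [add_smul, mul_comm, mul_smul, mul_comm (p : ℤ), mul_smul]
          _ = 0 := by rw [e1, e2, smul_zero, smul_zero, add_zero]
      exact hv (Subtype.ext h3)
    obtain ⟨c₀, hc₀⟩ := hc₀
    set ε := j * i⁻¹ with hε
    have hε1 : ε ≠ 1 := by
      intro h1
      apply hij
      rw [hε, mul_inv_eq_one] at h1
      exact h1.symm
    let τ : Z → Z := fun c => φ ε c * c⁻¹
    have hτinj : Function.Injective τ := by
      intro a b hab
      have h1 : φ ε a * a⁻¹ = φ ε b * b⁻¹ := hab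
      have h2 : φ ε (a * b⁻¹) = a * b⁻¹ := by
        rw [map_mul, map_inv]
        calc φ ε a * (φ ε b)⁻¹ = (φ ε a * a⁻¹) * (a * (φ ε b)⁻¹) := by group
          _ = (φ ε b * b⁻¹) * (a * (φ ε b)⁻¹) := by rw [h1]
          _ = a * b⁻¹ := by
            rw [mul_comm a (φ ε b)⁻¹, mul_mul_mul_comm, mul_inv_cancel, one_mul, mul_comm]
      have h3 := hfpf ε hε1 _ h2
      exact mul_inv_eq_one.mp h3
    have hτsurj : Function.Surjective τ := Finite.surjective_of_injective hτinj
    obtain ⟨c, hc⟩ := hτsurj c₀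
    refine ⟨(φ i)⁻¹ c, ?_⟩
    have e1 : φ i ((φ i)⁻¹ c) = c := by
      exact MulEquiv.apply_symm_apply (φ i) c
    have e2 : φ j ((φ i)⁻¹ c) = c₀ * c := by
      have e3 : j = ε * i := by rw [hε]; group
      rw [e3, map_mul]
      show φ ε (φ i ((φ i)⁻¹ c)) = _
      rw [e1, ← hc]
      show φ ε c = φ ε c * c⁻¹ * c
      group
    rw [e1, e2]
    intro hcon
    have h1 : m c v = m (c₀ * c) v := by
      have := congrArg Subtype.val hcon
      rw [hm', hm'] at this
      exact this
    rw [mul_comm, hmul] at h1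
    have h2 : ∀ y : W, m c⁻¹ (m c y) = y := by
      intro y
      rw [← hmul, inv_mul_cancel, hone]
    have h3 : (v : W) = m c₀ v := by
      have := congrArg (m c⁻¹) h1
      rwa [h2, h2] at this
    exact hc₀ h3.symm
  have hxB : x ∈ B := (hmemB x).mpr hT
  refine no_relation m' (fun (i : Γ) (z : Z) => φ i z) (fun i => map_one _) (fun i a b => map_mul _ a b)
    (Finset.univ : Finset Γ) hsep _ Finset.univ rfl subset_rfl (fun _ => (⟨x, hxB⟩ : B)) 1
    (Finset.mem_univ _) ?_ ?_
  · intro h0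
    exact hx0 (congrArg Subtype.val h0)
  · intro z
    apply Subtype.ext
    rw [AddSubgroup.val_finsetSum]
    have h1 := h z
    unfold yy at h1
    rw [sum_apply_end] at h1
    exact h1

/-- Consequence of `yy_trick` and `no_trace`. -/
theorem exists_sym (ρ : Γ →* AddMonoid.End W) (hρ : ∀ g z w, ρ g (m z w) = m (φ g z) (ρ g w))
    (hpW : ∀ w : W, p • w = 0) (hp2 : p ≠ 2) (hZ : (Fintype.card Z).Coprime p)
    (hfpf : ∀ g : Γ, g ≠ 1 → ∀ z : Z, φ g z = z → z = 1) (x : W) (hx0 : x ≠ 0)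
    (hxΓ : ∀ g : Γ, ρ g x = x) (hT : ∑ z : Z, m z x = 0) :
    ∃ z : Z, ∑ g : Γ, ρ g (m z x + m z⁻¹ x) ≠ 0 := by
  by_contra hcon
  push Not at hcon
  have key : ∀ z : Z, ∑ g : Γ, ρ g (m z x) = yy m φ z x := by
    intro z
    unfold yy
    rw [sum_apply_end]
    refine Finset.sum_congr rfl (fun g _ => ?_)
    rw [hρ, hxΓ]
  refine no_trace m φ hpW hZ hfpf x hx0 hT (yy_trick m φ hpW hp2 hZ x ?_)
  intro z
  have h1 := hcon z
  simp only [map_add, Finset.sum_add_distrib, key] at h1
  exact h1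

end Traces

section Indep

variable {Γ : Type*} [Group Γ] [Fintype Γ] (ρ : Γ →* AddMonoid.End W)

/-- The orbit of a vector with nonzero trace is linearly independent. -/
theorem indep (hpW : ∀ w : W, p • w = 0) (hΓ : IsPGroup p Γ) (u : W)
    (hS : ∑ g : Γ, ρ g u ≠ 0) (c : Γ → ZMod p) :
    letI : Module (ZMod p) W := AddCommGroup.zmodModule hpW
    ∑ g : Γ, c g • ρ g u = 0 → c = 0 := by
  classical
  letI : Module (ZMod p) W := AddCommGroup.zmodModule hpW
  intro hc
  by_contra hc0
  have hlin : ∀ (h : Γ) (r : ZMod p) (w : W), ρ h (r • w) = r • ρ h w := fun h r w =>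
    ((ρ h : W →+ W).toZModLinearMap p).map_smul r w
  let R : AddSubgroup (Γ → ZMod p) :=
    { carrier := {c | ∑ g : Γ, c g • ρ g u = 0}
      zero_mem' := by simp
      add_mem' := by
        intro a b ha hb
        show ∑ g : Γ, (a g + b g) • ρ g u = 0
        simp only [add_smul, Finset.sum_add_distrib]
        rw [show ∑ g : Γ, a g • ρ g u = 0 from ha, show ∑ g : Γ, b g • ρ g u = 0 from hb, add_zero]
      neg_mem' := by
        intro a ha
        show ∑ g : Γ, (- a g) • ρ g u = 0
        simp only [neg_smul, Finset.sum_neg_distrib]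
        rw [show ∑ g : Γ, a g • ρ g u = 0 from ha, neg_zero] }
  have hRmem : ∀ a : Γ → ZMod p, a ∈ R ↔ ∑ g : Γ, a g • ρ g u = 0 := fun _ => Iff.rfl
  have hact : ∀ (h : Γ) (a : Γ → ZMod p), a ∈ R → (fun g => a (h⁻¹ * g)) ∈ R := by
    intro h a ha
    rw [hRmem] at ha ⊢
    have h1 : ∑ g : Γ, a (h⁻¹ * g) • ρ g u = ∑ g : Γ, a g • ρ (h * g) u := by
      rw [← Equiv.sum_comp (Equiv.mulLeft h) (fun g => a (h⁻¹ * g) • ρ g u)]
      refine Finset.sum_congr rfl (fun g _ => ?_)
      simp
    rw [h1]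
    have h2 : ∑ g : Γ, a g • ρ (h * g) u = ρ h (∑ g : Γ, a g • ρ g u) := by
      rw [map_sum]
      refine Finset.sum_congr rfl (fun g _ => ?_)
      rw [hlin, map_mul]
      rfl
    rw [h2, ha, map_zero]
  letI act : MulAction Γ R :=
    { smul := fun h a => ⟨fun g => (a : Γ → ZMod p) (h⁻¹ * g), hact h a a.2⟩
      one_smul := fun a => by
        apply Subtype.ext
        funext g
        show (a : Γ → ZMod p) (1⁻¹ * g) = _
        simp
      mul_smul := fun h k a => by
        apply Subtype.ext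
        funext g
        show (a : Γ → ZMod p) ((h * k)⁻¹ * g) = (a : Γ → ZMod p) (k⁻¹ * (h⁻¹ * g))
        congr 1
        group }
  have hsm : ∀ (h g : Γ) (a : R), ((h • a : R) : Γ → ZMod p) g = (a : Γ → ZMod p) (h⁻¹ * g) := fun _ _ _ => rfl
  have hcR : c ∈ R := hc
  have hmod := hΓ.card_modEq_card_fixedPoints R
  -- `p` divides the order of `R`
  have hpR : p ∣ Nat.card R := by
    have h1 : addOrderOf (⟨c, hcR⟩ : R) = p := by
      apply addOrderOf_eq_prime
      · apply Subtype.ext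
        funext g
        show p • c g = 0
        rw [nsmul_eq_mul, CharP.cast_eq_zero, zero_mul]
      · intro h0
        exact hc0 (congrArg Subtype.val h0)
    have h2 := addOrderOf_dvd_natCard (⟨c, hcR⟩ : R)
    rwa [h1] at h2
  have hpF : p ∣ Nat.card (MulAction.fixedPoints Γ R) := by
    have h1 := (Nat.modEq_zero_iff_dvd.mpr hpR).symm.trans hmod
    exact Nat.modEq_zero_iff_dvd.mp h1.symm
  have h0fix : (0 : R) ∈ MulAction.fixedPoints Γ R := by
    intro h
    apply Subtype.ext
    funext g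
    rfl
  haveI : Nonempty (MulAction.fixedPoints Γ R) := ⟨⟨0, h0fix⟩⟩
  have hcard : 1 < Nat.card (MulAction.fixedPoints Γ R) := by
    have h1 : 0 < Nat.card (MulAction.fixedPoints Γ R) := Nat.card_pos
    exact lt_of_lt_of_le hp.out.one_lt (Nat.le_of_dvd h1 hpF)
  haveI : Nontrivial (MulAction.fixedPoints Γ R) := Finite.one_lt_card_iff_nontrivial.mp hcard
  obtain ⟨c₀, hc₀⟩ := exists_ne (⟨0, h0fix⟩ : MulAction.fixedPoints Γ R)
  have hconst : ∀ g : Γ, ((c₀ : R) : Γ → ZMod p) g = ((c₀ : R) : Γ → ZMod p) 1 := by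
    intro g
    have h1 := c₀.2 g⁻¹
    have h2 := congrArg (fun a : R => (a : Γ → ZMod p) 1) h1
    simp only [hsm, inv_inv, mul_one] at h2
    exact h2
  set r := ((c₀ : R) : Γ → ZMod p) 1 with hr
  have hr0 : r ≠ 0 := by
    intro h0
    apply hc₀
    apply Subtype.ext
    apply Subtype.ext
    funext g
    rw [hconst g, h0]
    rfl
  have h3 : ∑ g : Γ, r • ρ g u = 0 := by
    have h4 : ∑ g : Γ, ((c₀ : R) : Γ → ZMod p) g • ρ g u = 0 := (c₀ : R).2
    rw [← h4]
    refine Finset.sum_congr rfl (fun g _ => ?_)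
    rw [hconst g]
  rw [← Finset.smul_sum] at h3
  apply hS
  have h5 := congrArg (fun w => r⁻¹ • w) h3
  simpa only [smul_smul, inv_mul_cancel₀ hr0, one_smul, smul_zero] using h5

/-- The relation which would result from an orbit being a coset. -/
theorem no_rel (hpW : ∀ w : W, p • w = 0) (hp2 : p ≠ 2) (hΓ : IsPGroup p Γ) (u : W)
    (hS : ∑ g : Γ, ρ g u ≠ 0) (g γ : Γ) (hg : g ≠ 1) (hcard : 4 ≤ Fintype.card Γ) (w₀ : W)
    (hw₀ : w₀ ∈ AddSubgroup.closure (Set.range fun h : Γ => ρ h u)) (hfix : ∀ h : Γ, ρ h w₀ = w₀) :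
    (2 : ℕ) • ρ g u ≠ u + ρ γ u + w₀ := by
  classical
  letI : Module (ZMod p) W := AddCommGroup.zmodModule hpW
  have hlin : ∀ (h : Γ) (r : ZMod p) (w : W), ρ h (r • w) = r • ρ h w := fun h r w =>
    ((ρ h : W →+ W).toZModLinearMap p).map_smul r w
  have hind : ∀ c : Γ → ZMod p, ∑ g : Γ, c g • ρ g u = 0 → c = 0 := fun c hc =>
    indep ρ hpW hΓ u hS c hc
  intro hrel
  -- `w₀` as a combination
  have hex : ∀ w ∈ AddSubgroup.closure (Set.range fun h : Γ => ρ h u), ∃ d : Γ → ZMod p, w = ∑ h : Γ, d h • ρ h u := by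
    intro w hw
    induction hw using AddSubgroup.closure_induction with
    | mem x hx =>
      obtain ⟨k, rfl⟩ := hx
      refine ⟨fun h => if h = k then 1 else 0, ?_⟩
      simp only [ite_smul, one_smul, zero_smul, Finset.sum_ite_eq', Finset.mem_univ, if_true]
    | zero => exact ⟨0, by simp⟩
    | add x y _ _ hx hy =>
      obtain ⟨a, rfl⟩ := hx
      obtain ⟨b, rfl⟩ := hy
      exact ⟨a + b, by simp only [Pi.add_apply, add_smul, Finset.sum_add_distrib]⟩
    | neg x _ hx =>
      obtain ⟨a, rfl⟩ := hx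
      exact ⟨-a, by simp only [Pi.neg_apply, neg_smul, Finset.sum_neg_distrib]⟩
  obtain ⟨d, hd⟩ := hex w₀ hw₀
  have hdc : ∀ k h : Γ, d (k⁻¹ * h) = d h := by
    intro k h
    have h1 : ρ k w₀ = ∑ h : Γ, d (k⁻¹ * h) • ρ h u := by
      rw [hd, map_sum, ← Equiv.sum_comp (Equiv.mulLeft k) (fun h => d (k⁻¹ * h) • ρ h u)]
      refine Finset.sum_congr rfl (fun g _ => ?_)
      rw [hlin]
      simp only [Equiv.coe_mulLeft, inv_mul_cancel_left, map_mul]
      rfl
    have h2 : ∑ h : Γ, (d (k⁻¹ * h) - d h) • ρ h u = 0 := by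
      simp only [sub_smul, Finset.sum_sub_distrib]
      rw [← h1, ← hd, hfix, sub_self]
    have h3 := hind _ h2
    have h4 := congrFun h3 h
    exact sub_eq_zero.mp h4
  set r := d 1 with hr
  have hdr : ∀ h : Γ, d h = r := by
    intro h
    have h1 := hdc h h
    rw [inv_mul_cancel] at h1
    exact h1.symm
  let c : Γ → ZMod p := fun h =>
    (if h = g then 2 else 0) - (if h = 1 then 1 else 0) - (if h = γ then 1 else 0) - r
  have hc : ∑ h : Γ, c h • ρ h u = 0 := by
    simp only [c, sub_smul, Finset.sum_sub_distrib, ite_smul, zero_smul, one_smul, Finset.sum_ite_eq',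
      Finset.mem_univ, if_true]
    have e1 : ∑ h : Γ, r • ρ h u = w₀ := by
      rw [hd]
      exact Finset.sum_congr rfl (fun h _ => by rw [hdr])
    rw [e1, map_one]
    have e2 : (1 : AddMonoid.End W) u = u := rfl
    rw [e2, two_smul, ← two_nsmul, hrel]
    abel
  have hc0 := hind c hc
  obtain ⟨δ, hδ⟩ : ∃ δ : Γ, δ ∉ ({1, g, γ} : Finset Γ) := by
    by_contra hcon
    push Not at hcon
    have h1 : (Finset.univ : Finset Γ) ⊆ ({1, g, γ} : Finset Γ) := fun x _ => hcon x
    have h2 := Finset.card_le_card h1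
    have h3 : ({1, g, γ} : Finset Γ).card ≤ 3 := Finset.card_le_three
    rw [Finset.card_univ] at h2
    omega
  simp only [Finset.mem_insert, Finset.mem_singleton, not_or] at hδ
  have hr0 : r = 0 := by
    have h1 := congrFun hc0 δ
    simp only [c, hδ.1, hδ.2.1, hδ.2.2, if_false, Pi.zero_apply] at h1
    simpa using h1
  have h1 := congrFun hc0 1
  have hg' : (1 : Γ) ≠ g := Ne.symm hg
  simp only [c, hg', if_false, if_true, hr0, Pi.zero_apply] at h1
  have hone : (1 : ZMod p) ≠ 0 := one_ne_zero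
  have htwo : (2 : ZMod p) ≠ 0 := by
    intro h0
    have h2 : ((2 : ℕ) : ZMod p) = 0 := by exact_mod_cast h0
    rw [ZMod.natCast_eq_zero_iff] at h2
    exact hp2 ((Nat.prime_dvd_prime_iff_eq hp.out Nat.prime_two).mp h2)
  by_cases hγ : (1 : Γ) = γ
  · simp only [hγ, if_true] at h1
    apply htwo
    have e3 : (2 : ZMod p) = 1 + 1 := by norm_num
    rw [e3]
    linear_combination -h1
  · simp only [hγ, if_false] at h1
    apply hone
    linear_combination -h1

end Indep

end Cfsg.Agent.Lib.JConfig1
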