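import Mathlib
import Cfsg.Agent.Lib.JConfig1

/-!
# The module-theoretic core for the Thompson subgroup in a `p`-nilpotent-by-... configuration
-/

set_option autoImplicit false

namespace Cfsg.Agent.Lib.JConfig2

open Cfsg.Agent.Lib.JConfig1

variable {W : Type*} [AddCommGroup W] [Finite W] {p : ℕ} [hp : Fact p.Prime]

omit [Finite W] in
theorem zero_of_coprime_nsmul (hpW : ∀ w : W, p • w = 0) {n : ℕ} (hn : n.Coprime p) {v : W} (hv : n • v = 0) :
    v = 0 := by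
  have h4 : ((n : ℤ) * Nat.gcdA n p + (p : ℤ) * Nat.gcdB n p) = 1 := by
    have := Nat.gcd_eq_gcd_ab n p
    rw [hn] at this
    simpa using this.symm
  have e1 : (n : ℤ) • v = 0 := by rw [natCast_zsmul, hv]
  have e2 : (p : ℤ) • v = 0 := by rw [natCast_zsmul, hpW]
  calc v = (1 : ℤ) • v := (one_smul _ _).symm
    _ = ((n : ℤ) * Nat.gcdA n p + (p : ℤ) * Nat.gcdB n p) • v := by rw [h4]
    _ = Nat.gcdA n p • ((n : ℤ) • v) + Nat.gcdB n p • ((p : ℤ) • v) := by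
      rw [add_smul, mul_comm, mul_smul, mul_comm (p : ℤ), mul_smul]
    _ = 0 := by rw [e1, e2, smul_zero, smul_zero, add_zero]

/-- A `p`-group acting on a nonzero elementary abelian `p`-group has a nonzero fixed vector. -/
theorem exists_fixed {Γ : Type*} [Group Γ] (hΓ : IsPGroup p Γ) (hpW : ∀ w : W, p • w = 0) (ρ : Γ →* AddMonoid.End W)
    (B : AddSubgroup W) (hinv : ∀ g : Γ, ∀ b ∈ B, ρ g b ∈ B) {b₀ : W} (hb₀ : b₀ ∈ B) (hb₀0 : b₀ ≠ 0) :
    ∃ x ∈ B, x ≠ 0 ∧ ∀ g : Γ, ρ g x = x := by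
  classical
  letI act : MulAction Γ B :=
    { smul := fun g b => ⟨ρ g b, hinv g b b.2⟩
      one_smul := fun b => by
        apply Subtype.ext
        show ρ 1 (b : W) = b
        rw [map_one]; rfl
      mul_smul := fun g h b => by
        apply Subtype.ext
        show ρ (g * h) (b : W) = ρ g (ρ h b)
        rw [map_mul]; rfl }
  have hmod := hΓ.card_modEq_card_fixedPoints B
  have hpR : p ∣ Nat.card B := by
    have h1 : addOrderOf (⟨b₀, hb₀⟩ : B) = p := by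
      apply addOrderOf_eq_prime
      · apply Subtype.ext
        exact hpW b₀
      · intro h0
        exact hb₀0 (congrArg Subtype.val h0)
    have h2 := addOrderOf_dvd_natCard (⟨b₀, hb₀⟩ : B)
    rwa [h1] at h2
  have hpF : p ∣ Nat.card (MulAction.fixedPoints Γ B) := by
    have h1 := (Nat.modEq_zero_iff_dvd.mpr hpR).symm.trans hmod
    exact Nat.modEq_zero_iff_dvd.mp h1.symm
  have h0fix : (0 : B) ∈ MulAction.fixedPoints Γ B := by
    intro g
    apply Subtype.ext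
    show ρ g (0 : W) = 0
    exact map_zero _
  haveI : Nonempty (MulAction.fixedPoints Γ B) := ⟨⟨0, h0fix⟩⟩
  have hcard : 1 < Nat.card (MulAction.fixedPoints Γ B) := by
    have h1 : 0 < Nat.card (MulAction.fixedPoints Γ B) := Nat.card_pos
    exact lt_of_lt_of_le hp.out.one_lt (Nat.le_of_dvd h1 hpF)
  haveI : Nontrivial (MulAction.fixedPoints Γ B) := Finite.one_lt_card_iff_nontrivial.mp hcard
  obtain ⟨c₀, hc₀⟩ := exists_ne (⟨0, h0fix⟩ : MulAction.fixedPoints Γ B)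
  refine ⟨((c₀ : B) : W), (c₀ : B).2, ?_, ?_⟩
  · intro h0
    apply hc₀
    apply Subtype.ext
    apply Subtype.ext
    exact h0
  · intro g
    have h1 := c₀.2 g
    exact congrArg Subtype.val h1

/-- The core in terms of subgroups of the unit group. -/
theorem sub_core (hpW : ∀ w : W, p • w = 0) (hp5 : 5 ≤ p) (Γ Z : Subgroup (AddMonoid.End W)ˣ)
    (hΓp : IsPGroup p Γ) (hZc : ∀ a ∈ Z, ∀ b ∈ Z, a * b = b * a)
    (hZn : ∃ n : ℕ, n.Coprime p ∧ ∀ z ∈ Z, z ^ n = 1)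
    (hnorm : ∀ g ∈ Γ, ∀ z ∈ Z, g * z * g⁻¹ ∈ Z)
    (hfpf : ∀ g ∈ Γ, g ≠ 1 → ∀ z ∈ Z, g * z * g⁻¹ = z → z = 1)
    (hΓ1 : Γ ≠ ⊥) (hZ1 : Z ≠ ⊥) :
    ∃ x : W, ∃ z₀ ∈ Z, (∀ a ∈ Γ, ((a : (AddMonoid.End W)ˣ) : AddMonoid.End W) x = x) ∧
      ∀ g ∈ Γ, g ≠ 1 → ∀ γ ∈ Γ, ∀ w₀ ∈ AddSubgroup.closure {v : W | ∃ a ∈ Γ, v =
          ((a : (AddMonoid.End W)ˣ) : AddMonoid.End W)
            (((z₀ : (AddMonoid.End W)ˣ) : AddMonoid.End W) x + ((z₀⁻¹ : (AddMonoid.End W)ˣ) : AddMonoid.End W) x)},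
        (∀ a ∈ Γ, ((a : (AddMonoid.End W)ˣ) : AddMonoid.End W) w₀ = w₀) →
        (2 : ℕ) • ((g : (AddMonoid.End W)ˣ) : AddMonoid.End W)
            (((z₀ : (AddMonoid.End W)ˣ) : AddMonoid.End W) x + ((z₀⁻¹ : (AddMonoid.End W)ˣ) : AddMonoid.End W) x) ≠
          (((z₀ : (AddMonoid.End W)ˣ) : AddMonoid.End W) x + ((z₀⁻¹ : (AddMonoid.End W)ˣ) : AddMonoid.End W) x) +
            ((γ : (AddMonoid.End W)ˣ) : AddMonoid.End W)
              (((z₀ : (AddMonoid.End W)ˣ) : AddMonoid.End W) x + ((z₀⁻¹ : (AddMonoid.End W)ˣ) : AddMonoid.End W) x) + w₀ := by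
  classical
  haveI : Finite (AddMonoid.End W) := DFunLike.finite (W →+ W)
  haveI : Finite (AddMonoid.End W)ˣ := inferInstance
  letI : Fintype Γ := Fintype.ofFinite Γ
  letI : Fintype Z := Fintype.ofFinite Z
  letI instZ : CommGroup Z :=
    { (inferInstance : Group Z) with
      mul_comm := fun a b => Subtype.ext (hZc a a.2 b b.2) }
  let coeU : (AddMonoid.End W)ˣ →* AddMonoid.End W := Units.coeHom _
  let m : Z →* AddMonoid.End W := coeU.comp Z.subtype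
  let ρ : Γ →* AddMonoid.End W := coeU.comp Γ.subtype
  have hm : ∀ (z : Z) (w : W), m z w = ((z : (AddMonoid.End W)ˣ) : AddMonoid.End W) w := fun _ _ => rfl
  have hρd : ∀ (g : Γ) (w : W), ρ g w = ((g : (AddMonoid.End W)ˣ) : AddMonoid.End W) w := fun _ _ => rfl
  let φ : Γ →* MulAut Z :=
    { toFun := fun g =>
        { toFun := fun z => ⟨g * z * (g : (AddMonoid.End W)ˣ)⁻¹, hnorm g g.2 z z.2⟩
          invFun := fun z => ⟨(g : (AddMonoid.End W)ˣ)⁻¹ * z * (g : (AddMonoid.End W)ˣ), by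
            have := hnorm _ (Γ.inv_mem g.2) z z.2
            simpa using this⟩
          left_inv := fun z => by
            apply Subtype.ext
            show (g : (AddMonoid.End W)ˣ)⁻¹ * (g * z * (g : (AddMonoid.End W)ˣ)⁻¹) * g = z
            group
          right_inv := fun z => by
            apply Subtype.ext
            show (g : (AddMonoid.End W)ˣ) * ((g : (AddMonoid.End W)ˣ)⁻¹ * z * g) * (g : (AddMonoid.End W)ˣ)⁻¹ = z
            group
          map_mul' := fun a b => by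
            apply Subtype.ext
            show (g : (AddMonoid.End W)ˣ) * (a * b) * (g : (AddMonoid.End W)ˣ)⁻¹ =
              (g * a * (g : (AddMonoid.End W)ˣ)⁻¹) * (g * b * (g : (AddMonoid.End W)ˣ)⁻¹)
            group }
      map_one' := by
        refine MulEquiv.ext fun z => Subtype.ext ?_
        show ((1 : (AddMonoid.End W)ˣ)) * z * (1 : (AddMonoid.End W)ˣ)⁻¹ = z
        group
      map_mul' := fun g h => by
        refine MulEquiv.ext fun z => Subtype.ext ?_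
        show ((g : (AddMonoid.End W)ˣ) * h) * z * ((g : (AddMonoid.End W)ˣ) * h)⁻¹ =
          g * (h * z * (h : (AddMonoid.End W)ˣ)⁻¹) * (g : (AddMonoid.End W)ˣ)⁻¹
        group }
  have hφ : ∀ (g : Γ) (z : Z), ((φ g z : Z) : (AddMonoid.End W)ˣ) = g * z * (g : (AddMonoid.End W)ˣ)⁻¹ := fun _ _ => rfl
  have hρ : ∀ g z w, ρ g (m z w) = m (φ g z) (ρ g w) := by
    intro g z w
    rw [hρd, hρd, hm, hm, hφ]
    have e1 : ((g : (AddMonoid.End W)ˣ) : AddMonoid.End W) * ((z : (AddMonoid.End W)ˣ) : AddMonoid.End W) =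
        (((g * z * (g : (AddMonoid.End W)ˣ)⁻¹ : (AddMonoid.End W)ˣ)) : AddMonoid.End W) * ((g : (AddMonoid.End W)ˣ) : AddMonoid.End W) := by
      rw [← Units.val_mul, ← Units.val_mul]
      congr 1
      group
    exact congrArg (fun f : AddMonoid.End W => f w) e1
  -- the coprimality
  obtain ⟨n, hn, hnz⟩ := hZn
  have hZcard : (Fintype.card Z).Coprime p := by
    rw [Nat.coprime_comm]
    by_contra hcon
    have hpd : p ∣ Fintype.card Z := (Nat.Prime.dvd_iff_not_coprime hp.out).mpr hcon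
    rw [← Nat.card_eq_fintype_card] at hpd
    obtain ⟨y, hy⟩ := exists_prime_orderOf_dvd_card' p hpd
    have h1 : (y : (AddMonoid.End W)ˣ) ^ n = 1 := hnz y y.2
    have h2 : y ^ n = 1 := Subtype.ext h1
    have h3 := orderOf_dvd_of_pow_eq_one h2
    rw [hy] at h3
    exact (Nat.Prime.coprime_iff_not_dvd hp.out).mp hn.symm h3
  -- the fixed vector
  let T : W →+ W := AddMonoidHom.mk' (fun w => ∑ z : Z, m z w) (by
    intro a b
    simp only [map_add, Finset.sum_add_distrib])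
  have hTdef : ∀ w, T w = ∑ z : Z, m z w := fun _ => rfl
  have hTm : ∀ c w, T (m c w) = T w := by
    intro c w
    rw [hTdef, hTdef]
    have : ∀ z, m z (m c w) = m (z * c) w := by
      intro z
      rw [map_mul]; rfl
    simp only [this]
    exact Equiv.sum_comp (Equiv.mulRight c) (fun z => m z w)
  have hTρ : ∀ g w, T (ρ g w) = ρ g (T w) := by
    intro g w
    rw [hTdef, hTdef, map_sum]
    simp only [hρ]
    exact (Equiv.sum_comp (φ g).toEquiv (fun z => m z (ρ g w))).symm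
  have hBinv : ∀ (g : Γ), ∀ b ∈ T.ker, ρ g b ∈ T.ker := by
    intro g b hb
    rw [AddMonoidHom.mem_ker] at hb ⊢
    rw [hTρ, hb, map_zero]
  -- a nonzero element of the kernel
  obtain ⟨z₁, hz₁, hz₁1⟩ : ∃ z₁ ∈ Z, z₁ ≠ 1 := by
    by_contra hcon
    push Not at hcon
    exact hZ1 ((Subgroup.eq_bot_iff_forall Z).mpr hcon)
  obtain ⟨w, hw⟩ : ∃ w : W, ((z₁ : (AddMonoid.End W)ˣ) : AddMonoid.End W) w ≠ w := by
    by_contra hcon
    push Not at hcon
    apply hz₁1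
    apply Units.ext
    exact AddMonoidHom.ext hcon
  have hb₀ : m ⟨z₁, hz₁⟩ w - w ∈ T.ker := by
    rw [AddMonoidHom.mem_ker, map_sub, hTm, sub_self]
  have hb₀0 : m ⟨z₁, hz₁⟩ w - w ≠ 0 := sub_ne_zero.mpr hw
  obtain ⟨x, hxB, hx0, hxΓ⟩ := exists_fixed hΓp hpW ρ T.ker hBinv hb₀ hb₀0
  have hp2 : p ≠ 2 := by omega
  have hfpf' : ∀ g : Γ, g ≠ 1 → ∀ z : Z, φ g z = z → z = 1 := by
    intro g hg z hz
    apply Subtype.ext
    apply hfpf g g.2 (fun h => hg (Subtype.ext h)) z z.2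
    exact congrArg Subtype.val hz
  obtain ⟨z, hz⟩ := exists_sym m φ ρ hρ hpW hp2 hZcard hfpf' x hx0 hxΓ (AddMonoidHom.mem_ker.mp hxB)
  refine ⟨x, (z : (AddMonoid.End W)ˣ), z.2, fun a ha => hxΓ ⟨a, ha⟩, ?_⟩
  intro g hg hg1 γ hγ w₀ hw₀ hw₀fix
  have hcard : 4 ≤ Fintype.card Γ := by
    obtain ⟨k, hk⟩ := IsPGroup.iff_card.mp hΓp
    rw [Nat.card_eq_fintype_card] at hk
    have hk0 : k ≠ 0 := by
      rintro rfl
      rw [pow_zero] at hk
      apply hΓ1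
      have : Subsingleton Γ := Fintype.card_le_one_iff_subsingleton.mp hk.le
      rw [eq_bot_iff]
      intro a ha
      have h1 : (⟨a, ha⟩ : Γ) = 1 := Subsingleton.elim _ _
      exact congrArg Subtype.val h1
    rw [hk]
    calc 4 ≤ p := by omega
      _ = p ^ 1 := (pow_one p).symm
      _ ≤ p ^ k := Nat.pow_le_pow_right hp.out.pos (Nat.pos_of_ne_zero hk0)
  refine no_rel ρ hpW hp2 hΓp (m z x + m z⁻¹ x) hz ⟨g, hg⟩ ⟨γ, hγ⟩ (fun h => hg1 (congrArg Subtype.val h)) hcard w₀ ?_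
    (fun a => hw₀fix a a.2)
  refine AddSubgroup.closure_mono ?_ hw₀
  rintro v ⟨a, ha, rfl⟩
  exact ⟨⟨a, ha⟩, rfl⟩

/-- **The module lemma.** An abelian `p`-group of automorphisms of an elementary abelian `p`-group,
`p ≥ 5`, which normalizes an abelian `p'`-group of automorphisms without centralizing it has no
"orbits which are cosets". -/
theorem abstract_main (hpW : ∀ w : W, p • w = 0) (hp5 : 5 ≤ p) (A K : Subgroup (AddMonoid.End W)ˣ)
    (hAc : ∀ a ∈ A, ∀ b ∈ A, a * b = b * a) (hKc : ∀ a ∈ K, ∀ b ∈ K, a * b = b * a)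
    (hAp : IsPGroup p A) (hKn : ∃ n : ℕ, n.Coprime p ∧ ∀ z ∈ K, z ^ n = 1)
    (hnorm : ∀ a ∈ A, ∀ z ∈ K, a * z * a⁻¹ ∈ K) (hne : ∃ a ∈ A, ∃ z ∈ K, a * z * a⁻¹ ≠ z) :
    ∃ x : W, ∃ z₀ ∈ K, ∃ g ∈ A, (∀ a ∈ A, ((a : (AddMonoid.End W)ˣ) : AddMonoid.End W) x = x) ∧
      ∀ γ ∈ A, ∀ w₀ ∈ AddSubgroup.closure {v : W | ∃ a ∈ A, v =
          ((a : (AddMonoid.End W)ˣ) : AddMonoid.End W)
            (((z₀ : (AddMonoid.End W)ˣ) : AddMonoid.End W) x + ((z₀⁻¹ : (AddMonoid.End W)ˣ) : AddMonoid.End W) x)},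
        (∀ a ∈ A, ((a : (AddMonoid.End W)ˣ) : AddMonoid.End W) w₀ = w₀) →
        (2 : ℕ) • ((g : (AddMonoid.End W)ˣ) : AddMonoid.End W)
            (((z₀ : (AddMonoid.End W)ˣ) : AddMonoid.End W) x + ((z₀⁻¹ : (AddMonoid.End W)ˣ) : AddMonoid.End W) x) ≠
          (((z₀ : (AddMonoid.End W)ˣ) : AddMonoid.End W) x + ((z₀⁻¹ : (AddMonoid.End W)ˣ) : AddMonoid.End W) x) +
            ((γ : (AddMonoid.End W)ˣ) : AddMonoid.End W)
              (((z₀ : (AddMonoid.End W)ˣ) : AddMonoid.End W) x + ((z₀⁻¹ : (AddMonoid.End W)ˣ) : AddMonoid.End W) x) + w₀ := by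
  classical
  haveI : Finite (AddMonoid.End W) := DFunLike.finite (W →+ W)
  haveI : Finite (AddMonoid.End W)ˣ := inferInstance
  obtain ⟨a₀, ha₀, c₀, hc₀, hc₀ne⟩ := hne
  obtain ⟨n₀, hn₀, hpow⟩ := hKn
  -- the maximal subgroup `N`
  let 𝓢 : Set (Subgroup (AddMonoid.End W)ˣ) :=
    {N | N ≤ A ∧ ∃ a ∈ A, ∃ c ∈ K, (∀ n ∈ N, n * c = c * n) ∧ a * c * a⁻¹ ≠ c}
  have h𝓢ne : (𝓢).Nonempty := by
    refine ⟨⊥, bot_le, a₀, ha₀, c₀, hc₀, ?_, hc₀ne⟩
    intro n hn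
    rw [Subgroup.mem_bot] at hn
    rw [hn, one_mul, mul_one]
  obtain ⟨N, hN, hNmax⟩ := Set.exists_max_image 𝓢 (fun N => Nat.card N) (Set.toFinite _) h𝓢ne
  obtain ⟨hNA, a₁, ha₁, c₁, hc₁, hc₁N, hc₁ne⟩ := hN
  have key : ∀ b ∈ A, b ∉ N → ∀ c ∈ K, (∀ n ∈ N, n * c = c * n) → b * c * b⁻¹ = c →
      ∀ a ∈ A, a * c * a⁻¹ = c := by
    intro b hb hbN c hc hcN hbc
    by_contra hcon
    push Not at hcon
    obtain ⟨a, ha, hac⟩ := hcon
    let N' := N ⊔ Subgroup.zpowers b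
    have hN'A : N' ≤ A := sup_le hNA (Subgroup.zpowers_le.mpr hb)
    have hN'c : ∀ n ∈ N', n * c = c * n := by
      have h1 : N' ≤ Subgroup.centralizer {c} := by
        refine sup_le ?_ ?_
        · intro n hn
          rw [Subgroup.mem_centralizer_iff]
          intro y hy
          rw [Set.mem_singleton_iff] at hy
          rw [hy]
          exact (hcN n hn).symm
        · rw [Subgroup.zpowers_le, Subgroup.mem_centralizer_iff]
          intro y hy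
          rw [Set.mem_singleton_iff] at hy
          rw [hy]
          have : b * c = c * b := by
            calc b * c = b * c * b⁻¹ * b := by group
              _ = c * b := by rw [hbc]
          exact this.symm
      intro n hn
      have h2 := h1 hn
      rw [Subgroup.mem_centralizer_iff] at h2
      exact (h2 c rfl).symm
    have hmem : N' ∈ 𝓢 := ⟨hN'A, a, ha, c, hc, hN'c, hac⟩
    have h3 := hNmax N' hmem
    have hlt : N < N' := by
      refine lt_of_le_of_ne le_sup_left ?_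
      intro h4
      apply hbN
      rw [h4]
      exact Subgroup.mem_sup_right (Subgroup.mem_zpowers b)
    exact hlt.ne (Subgroup.eq_of_le_of_card_ge hlt.le h3)
  -- the norm
  letI : Fintype A := Fintype.ofFinite A
  letI instK : CommGroup K :=
    { (inferInstance : Group K) with
      mul_comm := fun a b => Subtype.ext (hKc a a.2 b b.2) }
  let cj : (b : (AddMonoid.End W)ˣ) → b ∈ A → K → K := fun b hb z => ⟨b * z * b⁻¹, hnorm b hb z z.2⟩
  let nm : K →* K :=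
    { toFun := fun z => ∏ a : A, cj a a.2 z
      map_one' := by
        refine Finset.prod_eq_one (fun a _ => ?_)
        apply Subtype.ext
        show (a : (AddMonoid.End W)ˣ) * 1 * (a : (AddMonoid.End W)ˣ)⁻¹ = 1
        group
      map_mul' := fun x y => by
        rw [← Finset.prod_mul_distrib]
        refine Finset.prod_congr rfl (fun a _ => ?_)
        apply Subtype.ext
        show (a : (AddMonoid.End W)ˣ) * (x * y) * (a : (AddMonoid.End W)ˣ)⁻¹ =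
          (a * x * (a : (AddMonoid.End W)ˣ)⁻¹) * (a * y * (a : (AddMonoid.End W)ˣ)⁻¹)
        group }
  have hnmdef : ∀ z, nm z = ∏ a : A, cj a a.2 z := fun _ => rfl
  have hnmcj : ∀ (b : (AddMonoid.End W)ˣ) (hb : b ∈ A) (z : K), nm (cj b hb z) = nm z := by
    intro b hb z
    rw [hnmdef, hnmdef]
    refine Eq.trans ?_ (Equiv.prod_comp (Equiv.mulRight (⟨b, hb⟩ : A)) (fun a : A => cj a a.2 z))
    refine Finset.prod_congr rfl (fun a _ => ?_)
    apply Subtype.ext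
    show (a : (AddMonoid.End W)ˣ) * (b * z * b⁻¹) * (a : (AddMonoid.End W)ˣ)⁻¹ =
      ((a : (AddMonoid.End W)ˣ) * b) * z * ((a : (AddMonoid.End W)ˣ) * b)⁻¹
    group
  have hnmfix : ∀ z : K, (∀ a ∈ A, a * (z : (AddMonoid.End W)ˣ) * a⁻¹ = z) → nm z = z ^ Fintype.card A := by
    intro z hz
    rw [hnmdef, ← Finset.card_univ, ← Finset.prod_const]
    refine Finset.prod_congr rfl (fun a _ => ?_)
    exact Subtype.ext (hz a a.2)
  -- the subgroup `Z₀`
  let Z₀ : Subgroup (AddMonoid.End W)ˣ :=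
    (K ⊓ Subgroup.centralizer (N : Set (AddMonoid.End W)ˣ)) ⊓ (nm.ker.map K.subtype)
  have hZ₀mem : ∀ z, z ∈ Z₀ ↔ ∃ hz : z ∈ K, (∀ n ∈ N, n * z = z * n) ∧ nm ⟨z, hz⟩ = 1 := by
    intro z
    constructor
    · rintro ⟨⟨hz, hzc⟩, ⟨y, hy, rfl⟩⟩
      refine ⟨y.2, ?_, hy⟩
      intro n hn
      exact (Subgroup.mem_centralizer_iff.mp hzc n hn)
    · rintro ⟨hz, hzc, hzn⟩
      refine ⟨⟨hz, Subgroup.mem_centralizer_iff.mpr hzc⟩, ⟨⟨z, hz⟩, hzn, rfl⟩⟩
  have hZ₀K : ∀ z ∈ Z₀, z ∈ K := fun z hz => hz.1.1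
  have hcoprime : ∀ z ∈ K, z ^ Fintype.card A = 1 → z = 1 := by
    intro z hz h1
    have h2 := hpow z hz
    obtain ⟨k, hk⟩ := IsPGroup.iff_card.mp hAp
    rw [Nat.card_eq_fintype_card] at hk
    rw [hk] at h1
    have h3 : Nat.Coprime (p ^ k) n₀ := (Nat.Coprime.pow_left k hn₀.symm)
    have h4 := Nat.dvd_gcd (orderOf_dvd_of_pow_eq_one h1) (orderOf_dvd_of_pow_eq_one h2)
    rw [h3, Nat.dvd_one] at h4
    exact orderOf_eq_one_iff.mp h4
  have hfpf₀ : ∀ b ∈ A, b ∉ N → ∀ z ∈ Z₀, b * z * b⁻¹ = z → z = 1 := by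
    intro b hb hbN z hz hbz
    obtain ⟨hzK, hzN, hzn⟩ := (hZ₀mem z).mp hz
    have h1 := key b hb hbN z hzK hzN hbz
    have h2 := hnmfix ⟨z, hzK⟩ h1
    rw [hzn] at h2
    apply hcoprime z hzK
    have h3 := congrArg Subtype.val h2
    exact h3.symm
  have hZ₀cj : ∀ a ∈ A, ∀ z ∈ Z₀, a * z * a⁻¹ ∈ Z₀ := by
    intro a ha z hz
    obtain ⟨hzK, hzN, hzn⟩ := (hZ₀mem z).mp hz
    refine (hZ₀mem _).mpr ⟨hnorm a ha z hzK, ?_, ?_⟩
    · intro n hn
      have h1 : n * a = a * n := hAc n (hNA hn) a ha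
      have h2 := hzN n hn
      have h3 : n * a⁻¹ = a⁻¹ * n := by
        calc n * a⁻¹ = a⁻¹ * (a * n) * a⁻¹ := by group
          _ = a⁻¹ * (n * a) * a⁻¹ := by rw [h1]
          _ = a⁻¹ * n := by group
      calc n * (a * z * a⁻¹) = (n * a) * z * a⁻¹ := by group
          _ = a * (n * z) * a⁻¹ := by rw [h1]; group
          _ = a * z * (n * a⁻¹) := by rw [h2]; group
          _ = a * z * a⁻¹ * n := by rw [h3]; group
    · have h1 := hnmcj a ha ⟨z, hzK⟩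
      rw [hzn] at h1
      exact h1
  -- the special element
  set z₁ := a₁ * c₁ * a₁⁻¹ * c₁⁻¹ with hz₁
  have hz₁Z : z₁ ∈ Z₀ := by
    have hc₁' : a₁ * c₁ * a₁⁻¹ ∈ K := hnorm a₁ ha₁ c₁ hc₁
    refine (hZ₀mem _).mpr ⟨K.mul_mem hc₁' (K.inv_mem hc₁), ?_, ?_⟩
    · intro n hn
      have h1 : n * a₁ = a₁ * n := hAc n (hNA hn) a₁ ha₁
      have h3 : n * a₁⁻¹ = a₁⁻¹ * n := by
        calc n * a₁⁻¹ = a₁⁻¹ * (a₁ * n) * a₁⁻¹ := by group
          _ = a₁⁻¹ * (n * a₁) * a₁⁻¹ := by rw [h1]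
          _ = a₁⁻¹ * n := by group
      have h2 := hc₁N n hn
      have h4 : n * c₁⁻¹ = c₁⁻¹ * n := by
        calc n * c₁⁻¹ = c₁⁻¹ * (c₁ * n) * c₁⁻¹ := by group
          _ = c₁⁻¹ * (n * c₁) * c₁⁻¹ := by rw [h2]
          _ = c₁⁻¹ * n := by group
      calc n * (a₁ * c₁ * a₁⁻¹ * c₁⁻¹) = (n * a₁) * c₁ * a₁⁻¹ * c₁⁻¹ := by group
        _ = a₁ * (n * c₁) * a₁⁻¹ * c₁⁻¹ := by rw [h1]; group
        _ = a₁ * c₁ * (n * a₁⁻¹) * c₁⁻¹ := by rw [h2]; group
        _ = a₁ * c₁ * a₁⁻¹ * (n * c₁⁻¹) := by rw [h3]; group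
        _ = a₁ * c₁ * a₁⁻¹ * c₁⁻¹ * n := by rw [h4]; group
    · have h1 : (⟨a₁ * c₁ * a₁⁻¹ * c₁⁻¹, K.mul_mem hc₁' (K.inv_mem hc₁)⟩ : K) = cj a₁ ha₁ ⟨c₁, hc₁⟩ * (⟨c₁, hc₁⟩ : K)⁻¹ := rfl
      rw [h1, map_mul, map_inv, hnmcj a₁ ha₁, mul_inv_cancel]
  have hz₁1 : z₁ ≠ 1 := by
    intro h
    apply hc₁ne
    rw [hz₁, mul_inv_eq_one] at h
    exact h
  have ha₁N : a₁ ∉ N := by
    intro h
    apply hc₁ne
    rw [hc₁N a₁ h]
    group
  -- the fixed points of `N`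
  let WN : AddSubgroup W :=
    { carrier := {w | ∀ n ∈ N, ((n : (AddMonoid.End W)ˣ) : AddMonoid.End W) w = w}
      zero_mem' := fun n _ => map_zero _
      add_mem' := by
        intro a b ha hb n hn
        rw [map_add, ha n hn, hb n hn]
      neg_mem' := by
        intro a ha n hn
        rw [map_neg, ha n hn] }
  have hWNmem : ∀ w, w ∈ WN ↔ ∀ n ∈ N, ((n : (AddMonoid.End W)ˣ) : AddMonoid.End W) w = w := fun _ => Iff.rfl
  let S : Subgroup (AddMonoid.End W)ˣ := Subgroup.centralizer (N : Set (AddMonoid.End W)ˣ)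
  have hSmem : ∀ s, s ∈ S ↔ ∀ n ∈ N, n * s = s * n := fun s => Subgroup.mem_centralizer_iff
  have hAS : A ≤ S := fun a ha => (hSmem a).mpr (fun n hn => hAc n (hNA hn) a ha)
  have hZS : Z₀ ≤ S := fun z hz => hz.1.2
  have hcomm : ∀ s ∈ S, ∀ n ∈ N, ∀ w : W, ((n : (AddMonoid.End W)ˣ) : AddMonoid.End W) (((s : (AddMonoid.End W)ˣ) : AddMonoid.End W) w) =
      ((s : (AddMonoid.End W)ˣ) : AddMonoid.End W) (((n : (AddMonoid.End W)ˣ) : AddMonoid.End W) w) := by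
    intro s hs n hn w
    have h1 := (hSmem s).mp hs n hn
    have h2 : ((n : (AddMonoid.End W)ˣ) : AddMonoid.End W) * ((s : (AddMonoid.End W)ˣ) : AddMonoid.End W) =
        ((s : (AddMonoid.End W)ˣ) : AddMonoid.End W) * ((n : (AddMonoid.End W)ˣ) : AddMonoid.End W) := by
      rw [← Units.val_mul, ← Units.val_mul, h1]
    exact congrArg (fun f : AddMonoid.End W => f w) h2
  have hSW : ∀ s ∈ S, ∀ w ∈ WN, ((s : (AddMonoid.End W)ˣ) : AddMonoid.End W) w ∈ WN := by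
    intro s hs w hw n hn
    rw [hcomm s hs n hn, hw n hn]
  let res : S →* AddMonoid.End WN :=
    { toFun := fun s => AddMonoidHom.codRestrict
        ((((s : (AddMonoid.End W)ˣ) : AddMonoid.End W) : W →+ W).comp WN.subtype) WN (fun w => hSW s s.2 w w.2)
      map_one' := by
        refine AddMonoidHom.ext fun w => Subtype.ext ?_
        rfl
      map_mul' := by
        intro a b
        refine AddMonoidHom.ext fun w => Subtype.ext ?_
        rfl }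
  let res' : S →* (AddMonoid.End WN)ˣ := res.toHomUnits
  have hres : ∀ (s : S) (w : WN), ((((res' s : (AddMonoid.End WN)ˣ) : AddMonoid.End WN) w : WN) : W) =
      (((s : S) : (AddMonoid.End W)ˣ) : AddMonoid.End W) w := by
    intro s w
    rw [show ((res' s : (AddMonoid.End WN)ˣ) : AddMonoid.End WN) = res s from MonoidHom.coe_toHomUnits res s]
    rfl
  -- the injectivity on `K ∩ S`
  have hinj : ∀ z ∈ K, ∀ hzS : z ∈ S, res' ⟨z, hzS⟩ = 1 → z = 1 := by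
    intro z hz hzS h1
    have hfixWN : ∀ w ∈ WN, ((z : (AddMonoid.End W)ˣ) : AddMonoid.End W) w = w := by
      intro w hw
      have h2 := hres ⟨z, hzS⟩ ⟨w, hw⟩
      rw [h1] at h2
      exact h2.symm
    by_contra hz1
    obtain ⟨w, hw⟩ : ∃ w : W, ((z : (AddMonoid.End W)ˣ) : AddMonoid.End W) w ≠ w := by
      by_contra hcon
      push Not at hcon
      apply hz1
      apply Units.ext
      exact AddMonoidHom.ext hcon
    set zz : AddMonoid.End W := ((z : (AddMonoid.End W)ˣ) : AddMonoid.End W) with hzz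
    let Tz : AddMonoid.End W := ∑ i ∈ Finset.range n₀, zz ^ i
    have hzn : zz ^ n₀ = 1 := by
      rw [hzz, ← Units.val_pow_eq_pow_val, hpow z hz]
      rfl
    have hTz : Tz * (zz - 1) = 0 := by
      show (∑ i ∈ Finset.range n₀, zz ^ i) * (zz - 1) = 0
      rw [geom_sum_mul, hzn, sub_self]
    let Tk : AddSubgroup W :=
      { carrier := {b | Tz b = 0}
        zero_mem' := map_zero _
        add_mem' := by
          intro a b ha hb
          show Tz (a + b) = 0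
          rw [map_add, show Tz a = 0 from ha, show Tz b = 0 from hb, add_zero]
        neg_mem' := by
          intro a ha
          show Tz (-a) = 0
          rw [map_neg, show Tz a = 0 from ha, neg_zero] }
    have hb₀ : zz w - w ∈ Tk := congrArg (fun f : AddMonoid.End W => f w) hTz
    have hb₀0 : zz w - w ≠ 0 := sub_ne_zero.mpr hw
    let ρN : N →* AddMonoid.End W := (Units.coeHom _).comp N.subtype
    have hρN : ∀ (n : N) (w : W), ρN n w = ((n : (AddMonoid.End W)ˣ) : AddMonoid.End W) w := fun _ _ => rfl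
    have hcommT : ∀ n : N, Commute (((n : (AddMonoid.End W)ˣ) : AddMonoid.End W)) Tz := by
      intro n
      refine Commute.sum_right _ _ _ (fun i _ => Commute.pow_right ?_ i)
      show ((n : (AddMonoid.End W)ˣ) : AddMonoid.End W) * ((z : (AddMonoid.End W)ˣ) : AddMonoid.End W) =
        ((z : (AddMonoid.End W)ˣ) : AddMonoid.End W) * ((n : (AddMonoid.End W)ˣ) : AddMonoid.End W)
      rw [← Units.val_mul, ← Units.val_mul, (hSmem z).mp hzS n n.2]
    have hinv : ∀ n : N, ∀ b ∈ Tk, ρN n b ∈ Tk := by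
      intro n b hb
      show Tz (ρN n b) = 0
      have h2 : Tz (ρN n b) = ρN n (Tz b) := by
        rw [hρN, hρN]
        exact (congrArg (fun f : AddMonoid.End W => f b) (hcommT n).eq).symm
      rw [h2, show Tz b = 0 from hb, map_zero]
    obtain ⟨v, hvB, hv0, hvN⟩ := exists_fixed (hAp.to_le hNA) hpW ρN _ hinv hb₀ hb₀0
    have hvW : v ∈ WN := fun n hn => hvN ⟨n, hn⟩
    have hzv := hfixWN v hvW
    have hzi : ∀ i : ℕ, (zz ^ i) v = v := by
      intro i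
      induction i with
      | zero => rfl
      | succ i ih =>
        rw [pow_succ]
        show (zz ^ i) (zz v) = v
        rw [show zz v = v from hzv, ih]
    have h3 : Tz v = n₀ • v := by
      show (∑ i ∈ Finset.range n₀, zz ^ i) v = n₀ • v
      rw [sum_apply_end]
      simp only [hzi, Finset.sum_const, Finset.card_range]
    have h4 : n₀ • v = 0 := by
      rw [← h3]
      exact hvB
    exact hv0 (zero_of_coprime_nsmul hpW hn₀ h4)
  -- passing to `WN`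
  let sA : ∀ a ∈ A, S := fun a ha => ⟨a, hAS ha⟩
  let sZ : ∀ z ∈ Z₀, S := fun z hz => ⟨z, hZS hz⟩
  let Γ₁ : Subgroup (AddMonoid.End WN)ˣ := (A.subgroupOf S).map res'
  let Z₁ : Subgroup (AddMonoid.End WN)ˣ := (Z₀.subgroupOf S).map res'
  have hΓ₁mem : ∀ a (ha : a ∈ A), res' (sA a ha) ∈ Γ₁ := fun a ha => ⟨sA a ha, ha, rfl⟩
  have hZ₁mem : ∀ z (hz : z ∈ Z₀), res' (sZ z hz) ∈ Z₁ := fun z hz => ⟨sZ z hz, hz, rfl⟩
  have hpW' : ∀ w : WN, p • w = 0 := fun w => Subtype.ext (hpW w)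
  have hΓp : IsPGroup p Γ₁ := by
    rintro ⟨_, s, hs, rfl⟩
    obtain ⟨k, hk⟩ := hAp ⟨s, hs⟩
    refine ⟨k, Subtype.ext ?_⟩
    have h1 : (s : (AddMonoid.End W)ˣ) ^ p ^ k = 1 := congrArg Subtype.val hk
    have h2 : s ^ p ^ k = 1 := Subtype.ext h1
    show (res' s) ^ p ^ k = 1
    rw [← map_pow, h2, map_one]
  have hZc : ∀ a ∈ Z₁, ∀ b ∈ Z₁, a * b = b * a := by
    rintro _ ⟨a, ha, rfl⟩ _ ⟨b, hb, rfl⟩
    rw [← map_mul, ← map_mul]
    congr 1
    exact Subtype.ext (hKc _ (hZ₀K _ ha) _ (hZ₀K _ hb))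
  have hZn : ∃ n : ℕ, n.Coprime p ∧ ∀ z ∈ Z₁, z ^ n = 1 := by
    refine ⟨n₀, hn₀, ?_⟩
    rintro _ ⟨a, ha, rfl⟩
    have h1 : a ^ n₀ = 1 := Subtype.ext (hpow _ (hZ₀K _ ha))
    rw [← map_pow, h1, map_one]
  have hnorm₁ : ∀ g ∈ Γ₁, ∀ z ∈ Z₁, g * z * g⁻¹ ∈ Z₁ := by
    rintro _ ⟨a, ha, rfl⟩ _ ⟨z, hz, rfl⟩
    refine ⟨a * z * a⁻¹, hZ₀cj _ ha _ hz, ?_⟩
    simp only [map_mul, map_inv]
  have hWNfix : ∀ a (ha : a ∈ A), a ∈ N → res' (sA a ha) = 1 := by
    intro a ha haN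
    apply Units.ext
    refine AddMonoidHom.ext fun w => Subtype.ext ?_
    have h1 := hres (sA a ha) w
    refine h1.trans ?_
    exact w.2 a haN
  have hmoved : ∀ a (ha : a ∈ A), ∀ z (hz : z ∈ Z₀), res' (sA a ha) * res' (sZ z hz) * (res' (sA a ha))⁻¹ = res' (sZ z hz) →
      a * z * a⁻¹ = z := by
    intro a ha z hz h
    have h1 : res' (sA a ha * sZ z hz * (sA a ha)⁻¹ * (sZ z hz)⁻¹) = 1 := by
      simp only [map_mul, map_inv]
      rw [h, mul_inv_cancel]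
    have hK1 : a * z * a⁻¹ * z⁻¹ ∈ K := K.mul_mem (hnorm a ha z (hZ₀K z hz)) (K.inv_mem (hZ₀K z hz))
    have h2 := hinj _ hK1 (sA a ha * sZ z hz * (sA a ha)⁻¹ * (sZ z hz)⁻¹).2 h1
    exact mul_inv_eq_one.mp h2
  have hfpf₁ : ∀ g ∈ Γ₁, g ≠ 1 → ∀ z ∈ Z₁, g * z * g⁻¹ = z → z = 1 := by
    rintro _ ⟨a, ha, rfl⟩ hg _ ⟨z, hz, rfl⟩ h
    have haN : (a : (AddMonoid.End W)ˣ) ∉ N := by
      intro h0
      exact hg (hWNfix _ ha h0)
    have h2 := hmoved _ ha _ hz h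
    have h3 := hfpf₀ _ ha haN _ hz h2
    have h4 : z = 1 := Subtype.ext h3
    rw [h4, map_one]
  have ha₁1 : res' (sA a₁ ha₁) ≠ 1 := by
    intro h
    have h1 : res' (sA a₁ ha₁) * res' (sZ z₁ hz₁Z) * (res' (sA a₁ ha₁))⁻¹ = res' (sZ z₁ hz₁Z) := by
      rw [h]; group
    have h2 := hmoved _ ha₁ _ hz₁Z h1
    exact hz₁1 (hfpf₀ _ ha₁ ha₁N _ hz₁Z h2)
  have hΓ1 : Γ₁ ≠ ⊥ := by
    intro h
    have h1 := hΓ₁mem a₁ ha₁
    rw [h, Subgroup.mem_bot] at h1
    exact ha₁1 h1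
  have hZ1 : Z₁ ≠ ⊥ := by
    intro h
    have h1 := hZ₁mem z₁ hz₁Z
    rw [h, Subgroup.mem_bot] at h1
    exact hz₁1 (hinj _ (hZ₀K _ hz₁Z) (hZS hz₁Z) h1)
  obtain ⟨x₁, _, ⟨s, hs, rfl⟩, hx₁, hmain⟩ := sub_core hpW' hp5 Γ₁ Z₁ hΓp hZc hZn hnorm₁ hfpf₁ hΓ1 hZ1
  have hsZ : (s : (AddMonoid.End W)ˣ) ∈ Z₀ := hs
  have hu : ∀ b : S, ((((res' b : (AddMonoid.End WN)ˣ) : AddMonoid.End WN) (((res' s : (AddMonoid.End WN)ˣ) : AddMonoid.End WN) x₁ +
      (((res' s)⁻¹ : (AddMonoid.End WN)ˣ) : AddMonoid.End WN) x₁) : WN) : W) =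
      ((b : (AddMonoid.End W)ˣ) : AddMonoid.End W)
        (((s : (AddMonoid.End W)ˣ) : AddMonoid.End W) x₁ + (((s : (AddMonoid.End W)ˣ)⁻¹ : (AddMonoid.End W)ˣ) : AddMonoid.End W) x₁) := by
    intro b
    rw [hres, ← map_inv]
    congr 1
  refine ⟨(x₁ : W), (s : (AddMonoid.End W)ˣ), hZ₀K _ hsZ, a₁, ha₁, ?_, ?_⟩
  · intro a ha
    have h1 := hx₁ _ (hΓ₁mem a ha)
    have h2 := hres (sA a ha) x₁
    rw [h1] at h2
    exact h2.symm
  · intro γ hγ w₀ hw₀ hfix heq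
    -- the lift of `w₀`
    have hlift : ∀ w ∈ AddSubgroup.closure {v : W | ∃ a ∈ A, v =
        ((a : (AddMonoid.End W)ˣ) : AddMonoid.End W)
          (((s : (AddMonoid.End W)ˣ) : AddMonoid.End W) x₁ + (((s : (AddMonoid.End W)ˣ)⁻¹ : (AddMonoid.End W)ˣ) : AddMonoid.End W) x₁)},
        ∃ w₁ ∈ AddSubgroup.closure {v : WN | ∃ a ∈ Γ₁, v = ((a : (AddMonoid.End WN)ˣ) : AddMonoid.End WN)
          (((res' s : (AddMonoid.End WN)ˣ) : AddMonoid.End WN) x₁ + (((res' s)⁻¹ : (AddMonoid.End WN)ˣ) : AddMonoid.End WN) x₁)},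
          (w₁ : W) = w := by
      intro w hw
      induction hw using AddSubgroup.closure_induction with
      | mem v hv =>
        obtain ⟨a, ha, rfl⟩ := hv
        refine ⟨_, AddSubgroup.subset_closure ⟨_, hΓ₁mem a ha, rfl⟩, ?_⟩
        exact hu (sA a ha)
      | zero => exact ⟨0, AddSubgroup.zero_mem _, rfl⟩
      | add v v' _ _ hv hv' =>
        obtain ⟨w₁, hw₁, rfl⟩ := hv
        obtain ⟨w₂, hw₂, rfl⟩ := hv'
        exact ⟨w₁ + w₂, AddSubgroup.add_mem _ hw₁ hw₂, rfl⟩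
      | neg v _ hv =>
        obtain ⟨w₁, hw₁, rfl⟩ := hv
        exact ⟨-w₁, AddSubgroup.neg_mem _ hw₁, rfl⟩
    obtain ⟨w₁, hw₁, hw₁w⟩ := hlift w₀ hw₀
    refine hmain _ (hΓ₁mem a₁ ha₁) ha₁1 _ (hΓ₁mem γ hγ) w₁ hw₁ ?_ ?_
    · rintro _ ⟨a, ha, rfl⟩
      apply Subtype.ext
      have h1 := hres a w₁
      refine h1.trans ?_
      rw [hw₁w]
      exact hfix (a : (AddMonoid.End W)ˣ) ha
    · apply Subtype.ext
      have e1 := hu (sA a₁ ha₁)
      have e2 := hu (sA γ hγ)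
      have e3 : (((((res' s : (AddMonoid.End WN)ˣ) : AddMonoid.End WN) x₁ +
          (((res' s)⁻¹ : (AddMonoid.End WN)ˣ) : AddMonoid.End WN) x₁ : WN)) : W) =
          (((s : (AddMonoid.End W)ˣ) : AddMonoid.End W) x₁ + (((s : (AddMonoid.End W)ˣ)⁻¹ : (AddMonoid.End W)ˣ) : AddMonoid.End W) x₁) := by
        have e4 := hu 1
        simpa using e4
      rw [AddSubgroup.coe_nsmul, AddSubgroup.coe_add, AddSubgroup.coe_add, e1, e2, e3, hw₁w]
      exact heq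

end Cfsg.Agent.Lib.JConfig2
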