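import Mathlib
import Cfsg.Agent.Lib.JConfig2

/-!
# The module lemma in multiplicative form, inside a group
-/

set_option autoImplicit false

namespace Cfsg.Agent.Lib.JConfig3

open Cfsg.Agent.Lib.JConfig2

/-- `abstract_main` for a normal abelian subgroup of exponent `p`. -/
theorem module_step {Γ : Type*} [Group Γ] [Finite Γ] {p : ℕ} [hp : Fact p.Prime] (hp5 : 5 ≤ p)
    (V : Subgroup Γ) (hVn : V.Normal)
    (hVc : ∀ x ∈ V, ∀ y ∈ V, x * y = y * x) (hVp : ∀ y ∈ V, y ^ p = 1)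
    (Ab Kb : Subgroup Γ) (hAbp : IsPGroup p Ab)
    (hAbc : ∀ a ∈ Ab, ∀ b ∈ Ab, ∀ v ∈ V, (a * b) * v * (a * b)⁻¹ = (b * a) * v * (b * a)⁻¹)
    (hKbc : ∀ a ∈ Kb, ∀ b ∈ Kb, ∀ v ∈ V, (a * b) * v * (a * b)⁻¹ = (b * a) * v * (b * a)⁻¹)
    {n : ℕ} (hn : n.Coprime p) (hKbn : ∀ k ∈ Kb, ∀ v ∈ V, k ^ n * v * (k ^ n)⁻¹ = v)
    (hnorm : ∀ a ∈ Ab, ∀ k ∈ Kb, a * k * a⁻¹ ∈ Kb)
    (hne : ∃ a ∈ Ab, ∃ k ∈ Kb, ∃ v ∈ V, (a * k * a⁻¹) * v * (a * k * a⁻¹)⁻¹ ≠ k * v * k⁻¹) :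
    ∃ x ∈ V, ∃ k₀ ∈ Kb, ∃ b ∈ Ab, (∀ a ∈ Ab, a * x * a⁻¹ = x) ∧
      ∀ γ ∈ Ab, ∀ w₀ ∈ Subgroup.closure {v | ∃ a ∈ Ab, v = a * ((k₀ * x * k₀⁻¹) * (k₀⁻¹ * x * k₀)) * a⁻¹},
        (∀ a ∈ Ab, a * w₀ * a⁻¹ = w₀) →
        (b * ((k₀ * x * k₀⁻¹) * (k₀⁻¹ * x * k₀)) * b⁻¹) * (b * ((k₀ * x * k₀⁻¹) * (k₀⁻¹ * x * k₀)) * b⁻¹) ≠
          ((k₀ * x * k₀⁻¹) * (k₀⁻¹ * x * k₀)) * (γ * ((k₀ * x * k₀⁻¹) * (k₀⁻¹ * x * k₀)) * γ⁻¹) * w₀ := by
  classical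
  letI inst : CommGroup V :=
    { (inferInstance : Group V) with
      mul_comm := fun x y => Subtype.ext (hVc x x.2 y y.2) }
  let W := Additive V
  let ι : ∀ y : Γ, y ∈ V → W := fun y hy => Additive.ofMul (⟨y, hy⟩ : V)
  have hιext : ∀ {x y : Γ} (hx : x ∈ V) (hy : y ∈ V), x = y → ι x hx = ι y hy := by
    intro x y hx hy h
    subst h; rfl
  have hιsurj : ∀ v : W, ∃ y, ∃ hy : y ∈ V, v = ι y hy := fun v => ⟨_, (Additive.toMul v).2, rfl⟩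
  have hιadd : ∀ {x y : Γ} (hx : x ∈ V) (hy : y ∈ V), ι x hx + ι y hy = ι (x * y) (V.mul_mem hx hy) :=
    fun _ _ => rfl
  have hιneg : ∀ {x : Γ} (hx : x ∈ V), - ι x hx = ι x⁻¹ (V.inv_mem hx) := fun _ => rfl
  have hιzero : ∀ {x : Γ} (hx : x ∈ V), x = 1 → ι x hx = 0 := by
    intro x hx h
    subst h; rfl
  have hιinj : ∀ {x y : Γ} (hx : x ∈ V) (hy : y ∈ V), ι x hx = ι y hy → x = y := by
    intro x y hx hy h
    have := congrArg (fun v : W => ((Additive.toMul v : V) : Γ)) h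
    exact this
  let ρf : Γ → AddMonoid.End W := fun g =>
    AddMonoidHom.mk' (fun v => ι (g * ((Additive.toMul v : V) : Γ) * g⁻¹) (hVn.conj_mem _ (Additive.toMul v).2 g))
      (by
        intro v w
        rw [hιadd]
        apply hιext
        show g * (((Additive.toMul v : V) : Γ) * ((Additive.toMul w : V) : Γ)) * g⁻¹ = _
        group)
  have hρι : ∀ (g y : Γ) (hy : y ∈ V), ρf g (ι y hy) = ι (g * y * g⁻¹) (hVn.conj_mem _ hy g) := fun _ _ _ => rfl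
  let ρ : Γ →* AddMonoid.End W :=
    { toFun := ρf
      map_one' := by
        refine AddMonoidHom.ext fun v => ?_
        obtain ⟨y, hy, rfl⟩ := hιsurj v
        show ρf 1 (ι y hy) = ι y hy
        rw [hρι]
        apply hιext
        group
      map_mul' := by
        intro g h
        refine AddMonoidHom.ext fun v => ?_
        obtain ⟨y, hy, rfl⟩ := hιsurj v
        show ρf (g * h) (ι y hy) = ρf g (ρf h (ι y hy))
        rw [hρι, hρι, hρι]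
        apply hιext
        group }
  have hρι' : ∀ (g y : Γ) (hy : y ∈ V), ρ g (ι y hy) = ι (g * y * g⁻¹) (hVn.conj_mem _ hy g) := fun _ _ _ => rfl
  let ρu : Γ →* (AddMonoid.End W)ˣ := MonoidHom.toHomUnits ρ
  have hρuc : ∀ g, ((ρu g : (AddMonoid.End W)ˣ) : AddMonoid.End W) = ρ g := fun g => MonoidHom.coe_toHomUnits ρ g
  have hρuι : ∀ (g y : Γ) (hy : y ∈ V), ((ρu g : (AddMonoid.End W)ˣ) : AddMonoid.End W) (ι y hy) =
      ι (g * y * g⁻¹) (hVn.conj_mem _ hy g) := by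
    intro g y hy
    rw [hρuc]; rfl
  have hρuinv : ∀ (g y : Γ) (hy : y ∈ V), (((ρu g)⁻¹ : (AddMonoid.End W)ˣ) : AddMonoid.End W) (ι y hy) =
      ι (g⁻¹ * y * g) (by simpa using hVn.conj_mem _ hy g⁻¹) := by
    intro g y hy
    rw [← map_inv, hρuι]
    apply hιext
    group
  have hunits : ∀ g h : Γ, (∀ v ∈ V, g * v * g⁻¹ = h * v * h⁻¹) → ρu g = ρu h := by
    intro g h hgh
    apply Units.ext
    rw [hρuc, hρuc]
    refine AddMonoidHom.ext fun v => ?_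
    obtain ⟨y, hy, rfl⟩ := hιsurj v
    exact hιext _ _ (hgh y hy)
  haveI : Finite W := inferInstanceAs (Finite V)
  have hpW : ∀ w : W, p • w = 0 := by
    intro v
    obtain ⟨y, hy, rfl⟩ := hιsurj v
    have h1 : p • ι y hy = ι (y ^ p) (V.pow_mem hy _) := rfl
    rw [h1]
    exact hιzero _ (hVp y hy)
  obtain ⟨a₀, ha₀, k₁, hk₁, v₁, hv₁, hne₁⟩ := hne
  obtain ⟨xw, z₀, hz₀, g, hg, hfix, hmain⟩ := abstract_main hpW hp5 (Ab.map ρu) (Kb.map ρu)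
    (by
      rintro _ ⟨a, ha, rfl⟩ _ ⟨b, hb, rfl⟩
      rw [← map_mul, ← map_mul]
      exact hunits _ _ (hAbc a ha b hb))
    (by
      rintro _ ⟨a, ha, rfl⟩ _ ⟨b, hb, rfl⟩
      rw [← map_mul, ← map_mul]
      exact hunits _ _ (hKbc a ha b hb))
    (hAbp.map ρu)
    ⟨n, hn, by
      rintro _ ⟨k, hk, rfl⟩
      rw [← map_pow, ← map_one ρu]
      apply hunits
      intro v hv
      rw [hKbn k hk v hv]
      group⟩
    (by
      rintro _ ⟨a, ha, rfl⟩ _ ⟨k, hk, rfl⟩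
      exact ⟨a * k * a⁻¹, hnorm a ha k hk, by simp only [map_mul, map_inv]⟩)
    ⟨ρu a₀, ⟨a₀, ha₀, rfl⟩, ρu k₁, ⟨k₁, hk₁, rfl⟩, by
      intro h
      have h1 : ρu (a₀ * k₁ * a₀⁻¹) = ρu k₁ := by
        simp only [map_mul, map_inv]
        exact h
      have h2 := congrArg (fun u : (AddMonoid.End W)ˣ => ((u : (AddMonoid.End W)ˣ) : AddMonoid.End W) (ι v₁ hv₁)) h1
      simp only [hρuι] at h2
      exact hne₁ (hιinj _ _ h2)⟩
  obtain ⟨k₀, hk₀, rfl⟩ := hz₀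
  obtain ⟨b, hb, rfl⟩ := hg
  obtain ⟨x, hx, rfl⟩ := hιsurj xw
  refine ⟨x, hx, k₀, hk₀, b, hb, ?_, ?_⟩
  · intro a ha
    have h1 := hfix (ρu a) ⟨a, ha, rfl⟩
    rw [hρuι] at h1
    exact hιinj _ _ h1
  · intro γ hγ w₀ hw₀ hw₀fix heq
    set ub := (k₀ * x * k₀⁻¹) * (k₀⁻¹ * x * k₀) with hub
    have hk₀x : k₀ * x * k₀⁻¹ ∈ V := hVn.conj_mem _ hx k₀
    have hk₀x' : k₀⁻¹ * x * k₀ ∈ V := by simpa using hVn.conj_mem _ hx k₀⁻¹
    have hubV : ub ∈ V := V.mul_mem hk₀x hk₀x'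
    have hsum : ((ρu k₀ : (AddMonoid.End W)ˣ) : AddMonoid.End W) (ι x hx) +
        (((ρu k₀)⁻¹ : (AddMonoid.End W)ˣ) : AddMonoid.End W) (ι x hx) = ι ub hubV := by
      rw [hρuι, hρuinv, hιadd]
    -- `w₀` lies in `V` and its image in the additive closure
    have hcl : ∀ w₁ ∈ Subgroup.closure {v | ∃ a ∈ Ab, v = a * ub * a⁻¹}, ∃ hw : w₁ ∈ V,
        ι w₁ hw ∈ AddSubgroup.closure {v : W | ∃ a ∈ Ab.map ρu, v =
          ((a : (AddMonoid.End W)ˣ) : AddMonoid.End W)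
            (((ρu k₀ : (AddMonoid.End W)ˣ) : AddMonoid.End W) (ι x hx) +
              (((ρu k₀)⁻¹ : (AddMonoid.End W)ˣ) : AddMonoid.End W) (ι x hx))} := by
      intro w₁ hw₁
      induction hw₁ using Subgroup.closure_induction with
      | mem v hv =>
        obtain ⟨a, ha, rfl⟩ := hv
        refine ⟨hVn.conj_mem _ hubV a, AddSubgroup.subset_closure ⟨ρu a, ⟨a, ha, rfl⟩, ?_⟩⟩
        rw [hsum, hρuι]
      | one => exact ⟨V.one_mem, by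
          rw [hιzero _ rfl]; exact AddSubgroup.zero_mem _⟩
      | mul c d _ _ hc hd =>
        obtain ⟨hc1, hc2⟩ := hc
        obtain ⟨hd1, hd2⟩ := hd
        exact ⟨V.mul_mem hc1 hd1, by
          rw [← hιadd hc1 hd1]; exact AddSubgroup.add_mem _ hc2 hd2⟩
      | inv c _ hc =>
        obtain ⟨hc1, hc2⟩ := hc
        exact ⟨V.inv_mem hc1, by
          rw [← hιneg hc1]; exact AddSubgroup.neg_mem _ hc2⟩
    obtain ⟨hw₀V, hw₀c⟩ := hcl w₀ hw₀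
    refine hmain (ρu γ) ⟨γ, hγ, rfl⟩ (ι w₀ hw₀V) hw₀c ?_ ?_
    · rintro _ ⟨a, ha, rfl⟩
      rw [hρuι]
      exact hιext _ _ (hw₀fix a ha)
    · rw [hsum, hρuι, hρuι, two_nsmul, hιadd, hιadd, hιadd]
      exact hιext _ _ heq

end Cfsg.Agent.Lib.JConfig3
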