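import Mathlib

set_option autoImplicit false
set_option linter.unusedSectionVars false
set_option linter.unusedVariables false

namespace Cfsg.Agent.Lib.JF

section Basic

variable {R : Type*} [Ring R]

/-- An additive subgroup containing `1` in which every nonzero element has a two-sided inverse
lying in the subgroup. -/
structure IsJ (J : AddSubgroup R) : Prop where
  one_mem : (1 : R) ∈ J
  inv : ∀ x ∈ J, x ≠ 0 → ∃ y ∈ J, x * y = 1 ∧ y * x = 1

variable {J : AddSubgroup R}

theorem IsJ.nontrivial_of (hJ : IsJ J) {x : R} (hx : x ≠ 0) : Nontrivial R := ⟨⟨x, 0, hx⟩⟩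

theorem IsJ.hua (hJ : IsJ J) {x y : R} (hx : x ∈ J) (hy : y ∈ J) : x * y * x ∈ J := by
  by_cases hx0 : x = 0
  · simp [hx0, J.zero_mem]
  by_cases hy0 : y = 0
  · simp [hy0, J.zero_mem]
  haveI := hJ.nontrivial_of hx0
  obtain ⟨u, hu, hxu, hux⟩ := hJ.inv x hx hx0
  obtain ⟨v, hv, hyv, hvy⟩ := hJ.inv y hy hy0
  by_cases hvx : v = x
  · subst hvx
    rw [hvy, one_mul]
    exact hx
  have hvxm : v - x ∈ J := J.sub_mem hv hx
  obtain ⟨w, hw, h1, h2⟩ := hJ.inv (v - x) hvxm (sub_ne_zero.mpr hvx)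
  have hs : u + w ∈ J := J.add_mem hu hw
  have hs0 : u + w ≠ 0 := by
    intro h
    have hw' : w = -u := by
      rw [eq_neg_iff_add_eq_zero, add_comm]; exact h
    rw [hw'] at h1
    have h3 : v * u = 0 := by
      have : (v - x) * -u = -(v * u) + x * u := by noncomm_ring
      rw [this, hxu] at h1
      have h4 : -(v * u) = 0 := by
        have := congrArg (fun z => z - 1) h1
        simpa using this
      exact neg_eq_zero.mp h4
    have h5 : v = 0 := by
      have : v * u * x = v := by rw [mul_assoc, hux, mul_one]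
      rw [← this, h3, zero_mul]
    rw [h5, zero_mul] at hvy
    exact zero_ne_one hvy
  obtain ⟨s', hs', h3, h4⟩ := hJ.inv _ hs hs0
  have h5 : (u + w) * ((v - x) * y * x) = 1 := by
    have : (u + w) * ((v - x) * y * x) = u * (v * y) * x - (u * x) * (y * x) + (w * (v - x)) * (y * x) := by
      noncomm_ring
    rw [this, h2, hvy, hux]
    noncomm_ring
    rw [hux]
  have h6 : s' = (v - x) * y * x := by
    calc s' = s' * ((u + w) * ((v - x) * y * x)) := by rw [h5, mul_one]
      _ = (s' * (u + w)) * ((v - x) * y * x) := (mul_assoc _ _ _).symm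
      _ = _ := by rw [h4, one_mul]
  have h7 : (v - x) * y * x = x - x * y * x := by
    have : (v - x) * y * x = (v * y) * x - x * y * x := by noncomm_ring
    rw [this, hvy, one_mul]
  have h8 : x * y * x = x - s' := by
    rw [h6, h7]; abel
  rw [h8]
  exact J.sub_mem hx hs'

theorem IsJ.polar (hJ : IsJ J) {x y z : R} (hx : x ∈ J) (hy : y ∈ J) (hz : z ∈ J) :
    x * y * z + z * y * x ∈ J := by
  have h1 := hJ.hua (J.add_mem hx hz) hy
  have h2 := hJ.hua hx hy
  have h3 := hJ.hua hz hy
  have : x * y * z + z * y * x = (x + z) * y * (x + z) - x * y * x - z * y * z := by noncomm_ring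
  rw [this]
  exact J.sub_mem (J.sub_mem h1 h2) h3

theorem IsJ.pow_mem (hJ : IsJ J) {x : R} (hx : x ∈ J) (n : ℕ) : x ^ n ∈ J := by
  induction n using Nat.strong_induction_on with
  | _ n ih =>
    match n with
    | 0 => simpa using hJ.one_mem
    | 1 => simpa using hx
    | k + 2 =>
      have := hJ.hua hx (ih k (by omega))
      have h2 : x * x ^ k * x = x ^ (k + 2) := by
        rw [← pow_succ', ← pow_succ]
      rwa [h2] at this

/-- nonzero elements of `J` are not zero divisors. -/
theorem IsJ.eq_zero_of_mul (hJ : IsJ J) {x w : R} (hx : x ∈ J) (h : x * w = 0) (hw : w ≠ 0) : x = 0 := by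
  by_contra hx0
  obtain ⟨y, -, -, h2⟩ := hJ.inv x hx hx0
  apply hw
  calc w = y * x * w := by rw [h2, one_mul]
    _ = y * (x * w) := by rw [mul_assoc]
    _ = 0 := by rw [h, mul_zero]

theorem IsJ.eq_zero_of_mul' (hJ : IsJ J) {x w : R} (hx : x ∈ J) (h : w * x = 0) (hw : w ≠ 0) : x = 0 := by
  by_contra hx0
  obtain ⟨y, -, h2, -⟩ := hJ.inv x hx hx0
  apply hw
  calc w = w * (x * y) := by rw [h2, mul_one]
    _ = w * x * y := by rw [mul_assoc]
    _ = 0 := by rw [h, zero_mul]

theorem IsJ.eq_of_mul_eq (hJ : IsJ J) {x x' w : R} (hx : x ∈ J) (hx' : x' ∈ J) (h : x * w = x' * w)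
    (hw : w ≠ 0) : x = x' := by
  have : x - x' = 0 := hJ.eq_zero_of_mul (J.sub_mem hx hx') (by rw [sub_mul, h, sub_self]) hw
  exact sub_eq_zero.mp this

variable [Finite R]

section CharP

variable (p : ℕ) [hp : Fact p.Prime] [CharP R p]

omit [Finite R] hp in
theorem nsmul_p_eq (x : R) : p • x = 0 := by
  rw [nsmul_eq_mul, CharP.cast_eq_zero, zero_mul]

/-- For `p = 2`, every nonzero element of `J` is the square of a power of itself. -/
theorem IsJ.exists_sq_root (hJ : IsJ J) (h2 : p = 2) {x : R} (hx : x ∈ J) (hx0 : x ≠ 0) :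
    ∃ n : ℕ, (x ^ n) * (x ^ n) = x := by
  classical
  haveI := hJ.nontrivial_of hx0
  obtain ⟨y, -, hxy, hyx⟩ := hJ.inv x hx hx0
  let X : Rˣ := ⟨x, y, hxy, hyx⟩
  haveI : Finite Rˣ := Finite.of_injective (fun u : Rˣ => (u : R)) Units.val_injective
  have hpos : 0 < orderOf X := orderOf_pos X
  have hodd : ¬ 2 ∣ orderOf X := by
    rintro ⟨m, hm⟩
    have hm0 : 0 < m := by omega
    have hz : (x ^ m) ^ 2 = 1 := by
      have : X ^ (2 * m) = 1 := by rw [← hm]; exact pow_orderOf_eq_one X
      have h3 := congrArg (fun u : Rˣ => (u : R)) this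
      simp only [Units.val_pow_eq_pow_val, Units.val_one] at h3
      rw [← pow_mul, mul_comm]
      exact h3
    have hne : x ^ m ≠ 1 := by
      intro h
      have h3 : X ^ m = 1 := Units.ext (by simpa using h)
      have := orderOf_le_of_pow_eq_one hm0 h3
      omega
    have hz1 : x ^ m + 1 ∈ J := J.add_mem (hJ.pow_mem hx m) hJ.one_mem
    haveI : CharP R 2 := h2 ▸ (inferInstance : CharP R p)
    have h20 : (2 : R) = 0 := by exact_mod_cast CharP.cast_eq_zero R 2
    have hsq : (x ^ m + 1) * (x ^ m + 1) = 0 := by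
      have : (x ^ m + 1) * (x ^ m + 1) = (x ^ m) ^ 2 + 2 * x ^ m + 1 := by noncomm_ring
      rw [this, hz, h20, zero_mul, add_zero]
      have h4 : (1 : R) + 1 = 2 := by norm_num
      rw [h4, h20]
    have hne2 : x ^ m + 1 ≠ 0 := by
      intro h
      apply hne
      have : x ^ m = -1 := eq_neg_of_add_eq_zero_left h
      rw [this]
      have h5 : (-1 : R) = 1 := by
        rw [neg_eq_iff_add_eq_zero]
        have h4 : (1 : R) + 1 = 2 := by norm_num
        rw [h4, h20]
      exact h5
    exact hne2 (hJ.eq_zero_of_mul hz1 hsq hne2)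
  have hm : ∃ m, orderOf X + 1 = 2 * m := by
    have : orderOf X % 2 = 1 := by omega
    exact ⟨(orderOf X + 1) / 2, by omega⟩
  obtain ⟨m, hm⟩ := hm
  refine ⟨m, ?_⟩
  rw [← pow_add, ← two_mul, ← hm, pow_succ]
  have : x ^ orderOf X = 1 := by
    have h3 : ((X ^ orderOf X : Rˣ) : R) = 1 := by rw [pow_orderOf_eq_one]; rfl
    rw [Units.val_pow_eq_pow_val] at h3
    exact h3
  rw [this, one_mul]

/-- Commuting elements of `J` have their product in `J`. -/
theorem IsJ.mul_mem_of_commute (p : ℕ) [hp : Fact p.Prime] [CharP R p] (hJ : IsJ J) {x y : R} (hx : x ∈ J) (hy : y ∈ J) (h : x * y = y * x) :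
    x * y ∈ J := by
  by_cases h2 : p = 2
  · by_cases hx0 : x = 0
    · simp [hx0, J.zero_mem]
    obtain ⟨n, hn⟩ := hJ.exists_sq_root p h2 hx hx0
    have hc : Commute (x ^ n) y := (show Commute x y from h).pow_left n
    have := hJ.hua (hJ.pow_mem hx n) hy
    have h3 : x ^ n * y * x ^ n = x * y := by
      rw [hc.eq, mul_assoc, hn, ← h]
    rwa [h3] at this
  · have hodd : p % 2 = 1 := (hp.out.eq_two_or_odd).resolve_left h2
    have h1 := hJ.polar hx hJ.one_mem hy
    have h3 : x * 1 * y + y * 1 * x = 2 • (x * y) := by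
      rw [mul_one, mul_one, ← h, two_nsmul]
    rw [h3] at h1
    have h4 : ((p + 1) / 2) • (2 • (x * y)) = x * y := by
      have : (p + 1) / 2 * 2 = p + 1 := by omega
      rw [smul_smul, this, add_nsmul, one_nsmul, nsmul_p_eq p, zero_add]
    rw [← h4]
    exact J.nsmul_mem h1 _

/-- Halving in `J` for odd `p`. -/
theorem IsJ.of_two_nsmul (p : ℕ) [hp : Fact p.Prime] [CharP R p] (h2 : p ≠ 2) {z : R} (h : 2 • z ∈ J) : z ∈ J := by
  have hodd : p % 2 = 1 := (hp.out.eq_two_or_odd).resolve_left h2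
  have h4 : ((p + 1) / 2) • (2 • z) = z := by
    have : (p + 1) / 2 * 2 = p + 1 := by omega
    rw [smul_smul, this, add_nsmul, one_nsmul, nsmul_p_eq p, zero_add]
  rw [← h4]
  exact J.nsmul_mem h _

end CharP

end Basic

end Cfsg.Agent.Lib.JF
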