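import Mathlib
import Cfsg.Agent.Lib.JF2

set_option autoImplicit false
set_option linter.unusedSectionVars false
set_option linter.unusedVariables false

namespace Cfsg.Agent.Lib.JF

open scoped BigOperators

section Setup

variable {p : ℕ} [hp : Fact p.Prime] {F : Type*} [Field F] [Fintype F] [DecidableEq F] [Algebra (ZMod p) F]
  [Fintype (F ≃ₐ[ZMod p] F)]

local notation "Gal" => F ≃ₐ[ZMod p] F

variable {R : Type*} [Ring R] [CharP R p] [Finite R]

/-- The situation of the main theorem: a self-centralizing subfield of `J`. -/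
structure Setup (p : ℕ) [Fact p.Prime] [Algebra (ZMod p) F] (ι : F →+* R) (J : AddSubgroup R) : Prop where
  isJ : IsJ J
  iota_mem : ∀ c, ι c ∈ J
  self : ∀ z ∈ J, z ∈ E ι (1 : F ≃ₐ[ZMod p] F) → ∃ c, ι c = z

variable {ι : F →+* R} {J : AddSubgroup R}

omit [Fintype F] [DecidableEq F] [Algebra (ZMod p) F] [Fintype (F ≃ₐ[ZMod p] F)] [Finite R] in
theorem nontrivialR (p : ℕ) [hp : Fact p.Prime] [CharP R p] : Nontrivial R :=
  CharP.nontrivial_of_char_ne_one (v := p) hp.out.ne_one

omit [Fintype F] [DecidableEq F] [Algebra (ZMod p) F] [Fintype (F ≃ₐ[ZMod p] F)] [Finite R] in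
theorem iota_inj (p : ℕ) [hp : Fact p.Prime] [CharP R p] (ι : F →+* R) : Function.Injective ι := by
  haveI : Nontrivial R := nontrivialR (R := R) p
  exact ι.injective

theorem gl1 (hS : Setup p ι J) {z : R} (hz : z ∈ J) (σ : Gal) : pr ι σ z + pr ι σ⁻¹ z ∈ J := by
  classical
  let e : Fˣ ≃ Fˣ := (Units.mapEquiv (σ.toMulEquiv)).toEquiv.trans (Equiv.inv _)
  have he : ∀ v : Fˣ, ((e v : Fˣ) : F) = (σ (v : F))⁻¹ := by
    intro v
    show (((Units.mapEquiv (σ.toMulEquiv) v)⁻¹ : Fˣ) : F) = _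
    rw [Units.val_inv_eq_inv_val]
    rfl
  have h1 : pr ι σ⁻¹ z = -∑ v : Fˣ, ι (v : F) * z * ι (σ (v : F))⁻¹ := by
    rw [pr_apply, ← Equiv.sum_comp e]
    congr 1
    refine Finset.sum_congr rfl fun v _ => ?_
    rw [he]
    have h2 : (σ⁻¹) (σ (v : F))⁻¹ = (v : F)⁻¹ := by
      rw [map_inv₀, AlgEquiv.aut_inv, AlgEquiv.symm_apply_apply]
    rw [h2, inv_inv]
  rw [h1, pr_apply, ← neg_add, ← Finset.sum_add_distrib]
  apply J.neg_mem
  apply J.sum_mem
  intro v _
  exact hS.isJ.polar (hS.iota_mem _) hz (hS.iota_mem _)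

theorem sum_pairs_mem {S : Finset Gal} (hS : ∀ σ ∈ S, σ⁻¹ ∈ S ∧ σ⁻¹ ≠ σ) (f : Gal → R)
    (hf : ∀ σ, f σ + f σ⁻¹ ∈ J) : ∑ σ ∈ S, f σ ∈ J := by
  classical
  induction S using Finset.strongInduction with
  | H S ih =>
    by_cases hne : S.Nonempty
    · obtain ⟨σ, hσ⟩ := hne
      obtain ⟨h1, h2⟩ := hS σ hσ
      have h3 : σ⁻¹ ∈ S.erase σ := Finset.mem_erase.mpr ⟨h2, h1⟩
      have h4 : (S.erase σ).erase σ⁻¹ ⊂ S :=
        (Finset.erase_subset _ _).trans_ssubset (Finset.erase_ssubset hσ)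
      have h5 : ∀ ρ ∈ (S.erase σ).erase σ⁻¹, ρ⁻¹ ∈ (S.erase σ).erase σ⁻¹ ∧ ρ⁻¹ ≠ ρ := by
        intro ρ hρ
        simp only [Finset.mem_erase] at hρ ⊢
        obtain ⟨h6, h7, h8⟩ := hρ
        refine ⟨⟨?_, ?_, (hS ρ h8).1⟩, (hS ρ h8).2⟩
        · intro h; apply h7; rw [← inv_inj, h]
        · intro h; apply h6; rw [← inv_inj, inv_inv, h]
      have h6 := ih _ h4 h5
      rw [← Finset.add_sum_erase S f hσ, ← Finset.add_sum_erase _ f h3, ← add_assoc]
      exact J.add_mem (hf σ) h6
    · rw [Finset.not_nonempty_iff_eq_empty] at hne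
      subst hne
      simpa using J.zero_mem

theorem gl2 (hS : Setup p ι J) {z : R} (hz : z ∈ J) {σ : Gal} (hσ : σ * σ = 1) : pr ι σ z ∈ J := by
  classical
  by_cases hp2 : p = 2
  · -- characteristic two
    haveI hcF : CharP F p := charP_of_injective_algebraMap (algebraMap (ZMod p) F).injective p
    have h2F : (2 : F) = 0 := by
      have := CharP.cast_eq_zero F p
      rw [hp2] at this
      exact_mod_cast this
    have h2R : (2 : R) = 0 := by
      have := CharP.cast_eq_zero R p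
      rw [hp2] at this
      exact_mod_cast this
    let S : Finset Gal := Finset.univ.filter (fun σ => σ * σ ≠ 1)
    have hSm : ∑ ρ ∈ S, pr ι ρ z ∈ J := by
      apply sum_pairs_mem
      · intro ρ hρ
        simp only [S, Finset.mem_filter, Finset.mem_univ, true_and] at hρ ⊢
        refine ⟨fun h => hρ ?_, fun h => hρ ?_⟩
        · rw [← inv_inj, mul_inv_rev, h, inv_one]
        · nth_rewrite 1 [← h]
          exact inv_mul_cancel ρ
      · intro ρ
        exact gl1 hS hz ρ
    have hT : z - ∑ ρ ∈ S, pr ι ρ z = ∑ ρ ∈ Finset.univ.filter (fun σ : Gal => σ * σ = 1), pr ι ρ z := by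
      have h1 := pr_sum (ι := ι) (p := p) z
      have h2 := Finset.sum_filter_add_sum_filter_not (Finset.univ : Finset Gal) (fun σ => σ * σ = 1)
        (fun ρ => pr ι ρ z)
      rw [h1] at h2
      nth_rewrite 1 [← h2]
      simp only [S]
      abel
    have hTm : ∑ ρ ∈ Finset.univ.filter (fun σ : Gal => σ * σ = 1), pr ι ρ z ∈ J := by
      rw [← hT]
      exact J.sub_mem hz hSm
    by_cases hex : ∃ ι₀ : Gal, ι₀ ≠ 1 ∧ ι₀ * ι₀ = 1
    · obtain ⟨ι₀, h1, h2⟩ := hex
      have huniq : ∀ ρ : Gal, ρ * ρ = 1 → ρ = 1 ∨ ρ = ι₀ := by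
        intro ρ hρ
        by_contra hcon
        push Not at hcon
        have hle := IsCyclic.card_pow_eq_one_le (α := Gal) (n := 2) (by norm_num)
        have hsub : ({1, ι₀, ρ} : Finset Gal) ⊆ Finset.univ.filter (fun a : Gal => a ^ 2 = 1) := by
          intro x hx
          simp only [Finset.mem_insert, Finset.mem_singleton] at hx
          simp only [Finset.mem_filter, Finset.mem_univ, true_and, pow_two]
          rcases hx with rfl | rfl | rfl
          · simp
          · exact h2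
          · exact hρ
        have hc := Finset.card_le_card hsub
        have hc3 : ({1, ι₀, ρ} : Finset Gal).card = 3 := by
          rw [Finset.card_eq_three]
          exact ⟨1, ι₀, ρ, h1.symm, hcon.1.symm, hcon.2.symm, rfl⟩
        omega
      have hfilt : Finset.univ.filter (fun σ : Gal => σ * σ = 1) = {1, ι₀} := by
        ext ρ
        simp only [Finset.mem_filter, Finset.mem_univ, true_and, Finset.mem_insert, Finset.mem_singleton]
        constructor
        · exact huniq ρ
        · rintro (rfl | rfl)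
          · simp
          · exact h2
      rw [hfilt, Finset.sum_pair h1.symm] at hTm
      obtain ⟨e₁, he₁⟩ : ∃ e₁ : F, ι₀ e₁ ≠ e₁ := by
        by_contra hcon
        push Not at hcon
        exact h1 (AlgEquiv.ext hcon)
      have hneg : ∀ a : F, -a = a := by
        intro a
        rw [neg_eq_iff_add_eq_zero, ← two_mul, h2F, zero_mul]
      have ha0 : e₁ + ι₀ e₁ ≠ 0 := by
        intro h
        apply he₁
        have : ι₀ e₁ = -e₁ := by
          rw [eq_neg_iff_add_eq_zero, add_comm]; exact h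
        rw [this, hneg]
      have hιι : ∀ c, ι₀ (ι₀ c) = c := by
        intro c
        have := congrArg (fun g : Gal => g c) h2
        simpa [AlgEquiv.mul_apply] using this
      have hae : ι₀ (e₁ + ι₀ e₁) = e₁ + ι₀ e₁ := by
        rw [map_add, hιι, add_comm]
      let e : F := e₁ / (e₁ + ι₀ e₁)
      have he : e + ι₀ e = 1 := by
        simp only [e, map_div₀, hae]
        rw [← add_div, div_self ha0]
      have hb := hS.isJ.polar (hS.iota_mem e) hTm hS.isJ.one_mem
      have ha1 : pr ι (1 : Gal) z ∈ E ι (1 : Gal) := pr_mem _ _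
      have hb1 : pr ι ι₀ z ∈ E ι ι₀ := pr_mem _ _
      have hcalc : ι e * (pr ι (1 : Gal) z + pr ι ι₀ z) * 1 + 1 * (pr ι (1 : Gal) z + pr ι ι₀ z) * ι e = pr ι ι₀ z := by
        have h3 : pr ι (1 : Gal) z * ι e = ι e * pr ι (1 : Gal) z := ha1 e
        have h4 : pr ι ι₀ z * ι e = ι (ι₀ e) * pr ι ι₀ z := hb1 e
        rw [mul_one, one_mul, add_mul, h3, h4, mul_add]
        have h5 : ι e * pr ι (1 : Gal) z + ι e * pr ι ι₀ z + (ι e * pr ι (1 : Gal) z + ι (ι₀ e) * pr ι ι₀ z) =
            2 * (ι e * pr ι (1 : Gal) z) + ι (e + ι₀ e) * pr ι ι₀ z := by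
          rw [map_add, add_mul, two_mul]
          abel
        rw [h5, he, h2R, zero_mul, zero_add, map_one, one_mul]
      rw [hcalc] at hb
      have ha := J.sub_mem hTm hb
      rw [add_sub_cancel_right] at ha
      rcases (huniq σ hσ) with rfl | rfl
      · exact ha
      · exact hb
    · push Not at hex
      have hfilt : Finset.univ.filter (fun σ : Gal => σ * σ = 1) = {1} := by
        ext ρ
        simp only [Finset.mem_filter, Finset.mem_univ, true_and, Finset.mem_singleton]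
        constructor
        · intro h
          by_contra hne
          exact hex ρ hne h
        · rintro rfl
          simp
      rw [hfilt, Finset.sum_singleton] at hTm
      have : σ = 1 := by
        by_contra hne
        exact hex σ hne hσ
      rw [this]
      exact hTm
  · have h1 := gl1 hS hz σ
    have h2 : σ⁻¹ = σ := inv_eq_of_mul_eq_one_left hσ
    rw [h2, ← two_nsmul] at h1
    exact IsJ.of_two_nsmul p hp2 h1

/-- A homogeneous element of nontrivial degree in `J` with an eigenvector vanishes. -/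
theorem close (hS : Setup p ι J) {y w : R} (hy : y ∈ J) (hpr : pr ι (1 : Gal) y = 0) {a : F}
    (h : y * w = ι a * w) (hw : w ≠ 0) : y = 0 := by
  have h1 : y = ι a := hS.isJ.eq_of_mul_eq hy (hS.iota_mem a) h hw
  have h2 : pr ι (1 : Gal) (ι a) = ι a := pr_of_mem_self (iota_mem_E_one a)
  rw [← h1, hpr] at h2
  exact h2.symm

/-- Hilbert 90 for a semilinear element. -/
theorem eigen {τ : Gal} (hτ : τ ≠ 1) {t w₀ : R} (ht : t ∈ E ι τ) (hw₀ : w₀ ∈ E ι (1 : Gal)) (hw0 : w₀ ≠ 0)
    {ω : F} (hω : ω ≠ 0) (hτω : τ ω = ω) (h : t ^ orderOf τ * w₀ = ι ω * w₀) :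
    ∃ a : F, a ≠ 0 ∧ ∃ w : R, w ≠ 0 ∧ t * w = ι a * w := by
  classical
  have hd0 : 0 < orderOf τ := orderOf_pos τ
  have hd1 : ∀ c, (τ.toRingEquiv : F ≃+* F)^[orderOf τ] c = c := by
    intro c
    have h0 : (τ ^ orderOf τ) c = c := by rw [pow_orderOf_eq_one]; rfl
    rw [AlgEquiv.coe_pow] at h0
    exact h0
  have hd2 : ∀ i, 0 < i → i < orderOf τ → ∃ c, (τ.toRingEquiv : F ≃+* F)^[i] c ≠ c := by
    intro i h1 h2
    by_contra hcon
    push Not at hcon
    apply pow_ne_one_of_lt_orderOf h1.ne' h2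
    ext c
    have := hcon c
    simpa [AlgEquiv.coe_pow] using this
  obtain ⟨c, hc0, hc⟩ := exists_norm_mul_eq_one τ.toRingEquiv (orderOf τ) hd0 hd1 hd2 ω hω hτω
  let u : R := ι c * t
  have hu : u ∈ E ι τ := iota_mul_mem ht c
  have hpow : u ^ orderOf τ * w₀ = w₀ := by
    have h1 := twist_pow ι τ.toRingEquiv (t := t) (fun c' => ht c') c (orderOf τ)
    show (ι c * t) ^ orderOf τ * w₀ = w₀
    rw [h1, mul_assoc, h, ← mul_assoc, ← map_mul, hc, map_one, one_mul]
  let w : R := ∑ i ∈ Finset.range (orderOf τ), u ^ i * w₀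
  have huw : u * w = w := by
    have h3 := Finset.sum_range_succ (fun i => u ^ i * w₀) (orderOf τ)
    have h4 := Finset.sum_range_succ' (fun i => u ^ i * w₀) (orderOf τ)
    rw [h3, hpow] at h4
    simp only [pow_zero, one_mul] at h4
    have h5 := add_right_cancel h4
    show u * ∑ i ∈ Finset.range (orderOf τ), u ^ i * w₀ = ∑ i ∈ Finset.range (orderOf τ), u ^ i * w₀
    refine Eq.trans ?_ h5.symm
    rw [Finset.mul_sum]
    refine Finset.sum_congr rfl fun i _ => ?_
    rw [pow_succ', mul_assoc u]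
  have hw1 : pr ι (1 : Gal) w = w₀ := by
    show pr ι (1 : Gal) (∑ i ∈ Finset.range (orderOf τ), u ^ i * w₀) = w₀
    rw [map_sum]
    obtain ⟨m, hm⟩ : ∃ m, orderOf τ = m + 1 := ⟨orderOf τ - 1, by omega⟩
    rw [hm, Finset.sum_range_succ']
    simp only [pow_zero, one_mul, pr_of_mem_self hw₀]
    rw [Finset.sum_eq_zero, zero_add]
    intro i hi
    have hi' : i < m := Finset.mem_range.mp hi
    have hm1 : u ^ (i + 1) * w₀ ∈ E ι (τ ^ (i + 1) * 1) := E_mul (pow_mem_E hu _) hw₀
    rw [mul_one] at hm1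
    exact pr_of_mem_ne hm1 (pow_ne_one_of_lt_orderOf (by omega) (by omega))
  have hw2 : w ≠ 0 := by
    intro h0
    rw [h0, map_zero] at hw1
    exact hw0 hw1.symm
  refine ⟨c⁻¹, inv_ne_zero hc0, w, hw2, ?_⟩
  have h5 : ι c⁻¹ * (ι c * t * w) = ι c⁻¹ * w := by
    rw [show ι c * t * w = u * w from rfl, huw]
  rw [← h5, ← mul_assoc, ← mul_assoc, ← map_mul, inv_mul_cancel₀ hc0, map_one, one_mul]

/-- No homogeneous element of involutory degree. -/
theorem no_pure_inv (hS : Setup p ι J) {τ : Gal} (hτ : τ ≠ 1) (hττ : τ * τ = 1) {s : R} (hs : s ∈ E ι τ)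
    (hsJ : s ∈ J) (hs0 : s ≠ 0) : False := by
  have hord : orderOf τ = 2 := by
    apply orderOf_eq_prime
    · rw [pow_two]; exact hττ
    · exact hτ
  have h2 : s * s ∈ E ι (1 : Gal) := by
    have := E_mul hs hs
    rwa [hττ] at this
  obtain ⟨l, hl⟩ := hS.self _ (by simpa [pow_two] using hS.isJ.pow_mem hsJ 2) h2
  have hl0 : l ≠ 0 := by
    rintro rfl
    rw [map_zero] at hl
    exact hs0 (hS.isJ.eq_zero_of_mul hsJ hl.symm hs0)
  have hfix : τ l = l := by
    have h3 : ι (τ l) * s = ι l * s := by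
      rw [← hs l, hl, ← mul_assoc]
    have h4 : ι (τ l - l) * s = 0 := by
      rw [map_sub, sub_mul, h3, sub_self]
    have h5 := hS.isJ.eq_zero_of_mul (hS.iota_mem _) h4 hs0
    have h6 : τ l - l = 0 := iota_inj p ι (by rw [h5, map_zero])
    exact sub_eq_zero.mp h6
  haveI : Nontrivial R := nontrivialR (R := R) p
  obtain ⟨a, ha, w, hw, htw⟩ := eigen hτ hs (one_mem_E_one) one_ne_zero hl0 hfix (by
    rw [hord, pow_two, hl])
  have := close hS hsJ (pr_of_mem_ne hs hτ) htw hw
  exact hs0 this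

end Setup

end Cfsg.Agent.Lib.JF
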