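import Mathlib
import Cfsg.Agent.Lib.JF3

set_option autoImplicit false
set_option linter.unusedSectionVars false
set_option linter.unusedVariables false

namespace Cfsg.Agent.Lib.JF

open scoped BigOperators

section CaseTwo

variable {p : ℕ} [hp : Fact p.Prime] {F : Type*} [Field F] [Fintype F] [DecidableEq F] [Algebra (ZMod p) F]
  [Fintype (F ≃ₐ[ZMod p] F)]

local notation "Gal" => F ≃ₐ[ZMod p] F

variable {R : Type*} [Ring R] [CharP R p] [Finite R] {ι : F →+* R} {J : AddSubgroup R}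

theorem inv_apply_self (τ : Gal) (c : F) : τ⁻¹ (τ c) = c := by
  rw [AlgEquiv.aut_inv, AlgEquiv.symm_apply_apply]

theorem apply_inv_self (τ : Gal) (c : F) : τ (τ⁻¹ c) = c := by
  rw [AlgEquiv.aut_inv, AlgEquiv.apply_symm_apply]

theorem card_mul_eq (ι : F →+* R) (z : R) : ∑ _u : Fˣ, z = -z := by
  rw [Finset.sum_const, Finset.card_univ, nsmul_eq_mul]
  have : ((Fintype.card Fˣ : ℕ) : R) = ι ((Fintype.card Fˣ : ℕ) : F) := by simp
  rw [this, card_units_cast]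
  simp

/-- Separation of two characters. -/
theorem sep {σ₁ σ₂ : Gal} (h : σ₁ ≠ σ₂) {A B : R} (f : F → F)
    (hf : ∀ c, ι (σ₁ c) * A + ι (σ₂ c) * B = ι (f c)) : ∃ a, ι a = A := by
  refine ⟨-∑ u : Fˣ, (u : F)⁻¹ * f (σ₁⁻¹ (u : F)), ?_⟩
  have hne : σ₂ * σ₁⁻¹ ≠ 1 := by
    intro h1
    apply h
    have := mul_inv_eq_one.mp h1
    exact this.symm
  have h1 : ∀ u : Fˣ, ι ((u : F)⁻¹ * f (σ₁⁻¹ (u : F))) =
      A + ι ((σ₂ * σ₁⁻¹) (u : F) * ((1 : Gal) (u : F))⁻¹) * B := by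
    intro u
    have h2 := hf (σ₁⁻¹ (u : F))
    rw [map_mul, ← h2, apply_inv_self, mul_add, ← mul_assoc, ← map_mul, inv_mul_cancel₀ u.ne_zero, map_one,
      one_mul, ← mul_assoc, ← map_mul, AlgEquiv.mul_apply, AlgEquiv.one_apply, mul_comm (u : F)⁻¹]
  rw [map_neg, map_sum]
  simp only [h1]
  rw [Finset.sum_add_distrib, card_mul_eq ι, ← Finset.sum_mul, ← map_sum, sum_char_ne hne]
  simp

variable (hS : Setup p ι J)

include hS

/-- The family attached to a pair. -/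
theorem fam {σ : Gal} (hσ : σ * σ ≠ 1) {s s' : R} (hs : s ∈ E ι σ) (hs' : s' ∈ E ι σ⁻¹) (hJ : s + s' ∈ J)
    (α : F) : ι α * s + ι (σ⁻¹ α) * s' ∈ J := by
  have hmem : -∑ u : Fˣ, (ι (α * (u : F)⁻¹) * (s + s') * ι (σ⁻¹ (u : F)) +
      ι (σ⁻¹ (u : F)) * (s + s') * ι (α * (u : F)⁻¹)) ∈ J := by
    apply J.neg_mem
    apply J.sum_mem
    intro u _
    exact hS.isJ.polar (hS.iota_mem _) hJ (hS.iota_mem _)
  have hne1 : σ⁻¹ * σ⁻¹ ≠ 1 := by
    intro h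
    apply hσ
    rw [← inv_inj, mul_inv_rev, h, inv_one]
  have hne2 : σ⁻¹ ≠ σ := by
    intro h
    apply hσ
    nth_rewrite 1 [← h]
    exact inv_mul_cancel σ
  have hterm : ∀ u : Fˣ, ι (α * (u : F)⁻¹) * (s + s') * ι (σ⁻¹ (u : F)) +
      ι (σ⁻¹ (u : F)) * (s + s') * ι (α * (u : F)⁻¹) =
      ι α * s + ι (α * ((σ⁻¹ * σ⁻¹) (u : F) * ((1 : Gal) (u : F))⁻¹)) * s' +
      (ι (σ α * (σ⁻¹ (u : F) * (σ (u : F))⁻¹)) * s + ι (σ⁻¹ α) * s') := by
    intro u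
    have hu := u.ne_zero
    have h1 : s * ι (σ⁻¹ (u : F)) = ι (u : F) * s := by rw [hs, apply_inv_self]
    have h2 : s' * ι (σ⁻¹ (u : F)) = ι (σ⁻¹ (σ⁻¹ (u : F))) * s' := hs' _
    have h3 : s * ι (α * (u : F)⁻¹) = ι (σ (α * (u : F)⁻¹)) * s := hs _
    have h4 : s' * ι (α * (u : F)⁻¹) = ι (σ⁻¹ (α * (u : F)⁻¹)) * s' := hs' _
    have e1 : ι (α * (u : F)⁻¹) * (s + s') * ι (σ⁻¹ (u : F)) =
        ι α * s + ι (α * ((σ⁻¹ * σ⁻¹) (u : F) * ((1 : Gal) (u : F))⁻¹)) * s' := by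
      rw [mul_add, add_mul, mul_assoc, mul_assoc, h1, h2, ← mul_assoc, ← mul_assoc, ← map_mul, ← map_mul]
      congr 3
      · field_simp
      · rw [AlgEquiv.mul_apply, AlgEquiv.one_apply]
        field_simp
    have e2 : ι (σ⁻¹ (u : F)) * (s + s') * ι (α * (u : F)⁻¹) =
        ι (σ α * (σ⁻¹ (u : F) * (σ (u : F))⁻¹)) * s + ι (σ⁻¹ α) * s' := by
      rw [mul_add, add_mul, mul_assoc, mul_assoc, h3, h4, ← mul_assoc, ← mul_assoc, ← map_mul, ← map_mul]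
      congr 3
      · rw [map_mul, map_inv₀]
        ring
      · have h0 : σ⁻¹ (u : F) ≠ 0 := by simpa using hu
        rw [map_mul, map_inv₀]
        field_simp
    rw [e1, e2]
  simp only [hterm] at hmem
  rw [Finset.sum_add_distrib, Finset.sum_add_distrib, Finset.sum_add_distrib, card_mul_eq ι,
    card_mul_eq ι (ι (σ⁻¹ α) * s')] at hmem
  simp only [map_mul] at hmem
  have h5 : ∑ u : Fˣ, ι α * (ι ((σ⁻¹ * σ⁻¹) (u : F)) * ι ((1 : Gal) (u : F))⁻¹) * s' = 0 := by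
    have := sum_char_ne hne1
    have h6 : ∀ u : Fˣ, ι α * (ι ((σ⁻¹ * σ⁻¹) (u : F)) * ι ((1 : Gal) (u : F))⁻¹) * s' =
        ι α * ι ((σ⁻¹ * σ⁻¹) (u : F) * ((1 : Gal) (u : F))⁻¹) * s' := by
      intro u
      rw [map_mul (ι)]
    simp only [h6]
    rw [← Finset.sum_mul, ← Finset.mul_sum, ← map_sum, this]
    simp
  have h7 : ∑ u : Fˣ, ι (σ α) * (ι (σ⁻¹ (u : F)) * ι (σ (u : F))⁻¹) * s = 0 := by
    have := sum_char_ne hne2
    have h6 : ∀ u : Fˣ, ι (σ α) * (ι (σ⁻¹ (u : F)) * ι (σ (u : F))⁻¹) * s =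
        ι (σ α) * ι (σ⁻¹ (u : F) * (σ (u : F))⁻¹) * s := by
      intro u
      rw [map_mul (ι)]
    simp only [h6]
    rw [← Finset.sum_mul, ← Finset.mul_sum, ← map_sum, this]
    simp
  rw [h5, h7] at hmem
  rw [add_comm]
  simpa using hmem

omit hS in
/-- The graded closure for the lower terms of powers. -/
def GG (ι : F →+* R) (τ : Gal) (k : ℕ) : AddSubgroup R :=
  AddSubgroup.closure {z | ∃ j : ℕ, 1 ≤ j ∧ j + 1 ≤ k ∧ z ∈ E ι (τ ^ ((k : ℤ) - 2 * j))}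

omit hS in
theorem mul_GG_left {τ : Gal} {t z : R} (ht : t ∈ E ι τ) {k : ℕ} (hz : z ∈ GG ι τ k) : t * z ∈ GG ι τ (k + 1) := by
  unfold GG at hz
  induction hz using AddSubgroup.closure_induction with
  | mem z hz =>
    obtain ⟨j, h1, h2, h3⟩ := hz
    apply AddSubgroup.subset_closure
    refine ⟨j, h1, by omega, ?_⟩
    have h4 := E_mul ht h3
    have h5 : τ * τ ^ ((k : ℤ) - 2 * j) = τ ^ (((k + 1 : ℕ) : ℤ) - 2 * j) := by
      rw [← zpow_one_add]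
      congr 1
      push_cast
      ring
    rwa [h5] at h4
  | zero => simpa using (GG ι τ (k + 1)).zero_mem
  | add a b _ _ ha hb =>
    rw [mul_add]
    exact (GG ι τ (k + 1)).add_mem ha hb
  | neg a _ ha =>
    rw [mul_neg]
    exact (GG ι τ (k + 1)).neg_mem ha

omit hS in
theorem mul_GG_right {τ : Gal} {t z : R} (ht : t ∈ E ι τ⁻¹) {k : ℕ} (hz : z ∈ GG ι τ k) : t * z ∈ GG ι τ (k + 1) := by
  unfold GG at hz
  induction hz using AddSubgroup.closure_induction with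
  | mem z hz =>
    obtain ⟨j, h1, h2, h3⟩ := hz
    apply AddSubgroup.subset_closure
    refine ⟨j + 1, by omega, by omega, ?_⟩
    have h4 := E_mul ht h3
    have h5 : τ⁻¹ * τ ^ ((k : ℤ) - 2 * j) = τ ^ (((k + 1 : ℕ) : ℤ) - 2 * ((j + 1 : ℕ) : ℤ)) := by
      rw [← zpow_neg_one, ← zpow_add]
      congr 1
      push_cast
      ring
    rwa [h5] at h4
  | zero => simpa using (GG ι τ (k + 1)).zero_mem
  | add a b _ _ ha hb =>
    rw [mul_add]
    exact (GG ι τ (k + 1)).add_mem ha hb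
  | neg a _ ha =>
    rw [mul_neg]
    exact (GG ι τ (k + 1)).neg_mem ha

omit hS in
theorem pow_sub_mem_GG {τ : Gal} {t t' : R} (ht : t ∈ E ι τ) (ht' : t' ∈ E ι τ⁻¹) (k : ℕ) (hk : 1 ≤ k) :
    (t + t') ^ k - t ^ k - t' ^ k ∈ GG ι τ k := by
  induction k, hk using Nat.le_induction with
  | base =>
    have : (t + t') ^ 1 - t ^ 1 - t' ^ 1 = 0 := by simp
    rw [this]
    exact (GG ι τ 1).zero_mem
  | succ k hk ih =>
    have h1 : (t + t') ^ (k + 1) - t ^ (k + 1) - t' ^ (k + 1) =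
        t * t' ^ k + t' * t ^ k + (t * ((t + t') ^ k - t ^ k - t' ^ k) + t' * ((t + t') ^ k - t ^ k - t' ^ k)) := by
      rw [pow_succ', pow_succ' t, pow_succ' t']
      noncomm_ring
    rw [h1]
    refine (GG ι τ (k + 1)).add_mem ((GG ι τ (k + 1)).add_mem ?_ ?_)
      ((GG ι τ (k + 1)).add_mem (mul_GG_left ht ih) (mul_GG_right ht' ih))
    · apply AddSubgroup.subset_closure
      refine ⟨k, by omega, by omega, ?_⟩
      have h4 := E_mul ht (pow_mem_E ht' k)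
      have h5 : τ * τ⁻¹ ^ k = τ ^ (((k + 1 : ℕ) : ℤ) - 2 * (k : ℤ)) := by
        rw [inv_pow, ← zpow_natCast, ← zpow_neg, ← zpow_one_add]
        congr 1
        push_cast
        ring
      rwa [h5] at h4
    · apply AddSubgroup.subset_closure
      refine ⟨1, le_refl _, by omega, ?_⟩
      have h4 := E_mul ht' (pow_mem_E ht k)
      have h5 : τ⁻¹ * τ ^ k = τ ^ (((k + 1 : ℕ) : ℤ) - 2 * ((1 : ℕ) : ℤ)) := by
        rw [← zpow_natCast, ← zpow_neg_one, ← zpow_add]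
        congr 1
        push_cast
        ring
      rwa [h5] at h4

omit hS in
theorem pr_GG {τ σ : Gal} {k : ℕ} (h : ∀ j : ℕ, 1 ≤ j → j + 1 ≤ k → τ ^ ((k : ℤ) - 2 * j) ≠ σ) {z : R}
    (hz : z ∈ GG ι τ k) : pr ι σ z = 0 := by
  unfold GG at hz
  induction hz using AddSubgroup.closure_induction with
  | mem z hz =>
    obtain ⟨j, h1, h2, h3⟩ := hz
    exact pr_of_mem_ne h3 (h j h1 h2)
  | zero => simp
  | add a b _ _ ha hb => rw [map_add, ha, hb, add_zero]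
  | neg a _ ha => rw [map_neg, ha, neg_zero]

/-- The products of two homogeneous pair elements are scalars. -/
theorem prod_in_F {τ : Gal} (hτ : τ * τ ≠ 1) {t t' : R} (ht : t ∈ E ι τ) (ht' : t' ∈ E ι τ⁻¹)
    (hy : t + t' ∈ J) (hy0 : t + t' ≠ 0) :
    ∃ l₁ l₂, t * t' = ι l₁ ∧ t' * t = ι l₂ ∧ l₁ = τ l₂ := by
  have hτ1 : τ ≠ 1 := by
    rintro rfl
    simp at hτ
  have hne1 : τ⁻¹ * τ⁻¹ ≠ 1 := by
    intro h
    apply hτ
    rw [← inv_inj, mul_inv_rev, h, inv_one]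
  have hne2 : τ⁻¹ ≠ τ := by
    intro h
    apply hτ
    nth_rewrite 1 [← h]
    exact inv_mul_cancel τ
  have hA : t * t' ∈ E ι (1 : Gal) := by
    have := E_mul ht ht'
    rwa [mul_inv_cancel] at this
  have hB : t' * t ∈ E ι (1 : Gal) := by
    have := E_mul ht' ht
    rwa [inv_mul_cancel] at this
  have hz : ∀ c, ∃ f, ι (τ c) * (t * t') + ι (τ⁻¹ c) * (t' * t) = ι f := by
    intro c
    have h1 : (t + t') * ι c * (t + t') = ι (τ c) * (t * t) + ι (τ c) * (t * t') + ι (τ⁻¹ c) * (t' * t)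
        + ι (τ⁻¹ c) * (t' * t') := by
      have h2 : t * ι c = ι (τ c) * t := ht c
      have h3 : t' * ι c = ι (τ⁻¹ c) * t' := ht' c
      rw [add_mul, h2, h3]
      noncomm_ring
    have h4 : (t + t') * ι c * (t + t') ∈ J := hS.isJ.hua hy (hS.iota_mem c) |> fun h => by
      have h5 := hS.isJ.polar hy (hS.iota_mem c) hy
      -- use the `x y x` form directly
      simpa [mul_assoc] using hS.isJ.hua hy (hS.iota_mem c)
    have h5 := gl2 hS h4 (σ := 1) (by simp)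
    rw [h1, map_add, map_add, map_add] at h5
    rw [pr_of_mem_ne (iota_mul_mem (E_mul ht ht) _) hτ, pr_of_mem_ne (iota_mul_mem (E_mul ht' ht') _) hne1,
      pr_of_mem_self (iota_mul_mem hA _), pr_of_mem_self (iota_mul_mem hB _), zero_add, add_zero] at h5
    obtain ⟨f, hf⟩ := hS.self _ h5 (AddSubgroup.add_mem _ (iota_mul_mem hA _) (iota_mul_mem hB _))
    exact ⟨f, hf.symm⟩
  choose f hf using hz
  obtain ⟨l₁, hl₁⟩ := sep (ι := ι) (A := t * t') (B := t' * t) (σ₁ := τ) (σ₂ := τ⁻¹) hne2.symm f hf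
  obtain ⟨l₂, hl₂⟩ := sep (ι := ι) (A := t' * t) (B := t * t') (σ₁ := τ⁻¹) (σ₂ := τ) hne2 f
    (fun c => by rw [add_comm]; exact hf c)
  refine ⟨l₁, l₂, hl₁.symm, hl₂.symm, ?_⟩
  by_contra hne
  have hd : ι (l₁ - τ l₂) ∈ J := hS.iota_mem _
  have hd0 : ι (l₁ - τ l₂) ≠ 0 := by
    intro h
    apply hne
    have : l₁ - τ l₂ = 0 := iota_inj p ι (by rw [h, map_zero])
    exact sub_eq_zero.mp this
  have ht0 : t = 0 := by
    by_contra h0
    apply hd0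
    refine hS.isJ.eq_zero_of_mul hd ?_ h0
    have h3 : t * ι l₂ = ι (τ l₂) * t := ht l₂
    rw [map_sub, sub_mul, ← h3, hl₁, hl₂, mul_assoc, sub_self]
  have ht'0 : t' = 0 := by
    by_contra h0
    have hd' : ι (τ⁻¹ l₁ - l₂) ∈ J := hS.iota_mem _
    have hd'0 : ι (τ⁻¹ l₁ - l₂) ≠ 0 := by
      intro h
      apply hne
      have h1 : τ⁻¹ l₁ - l₂ = 0 := iota_inj p ι (by rw [h, map_zero])
      have h2 : τ⁻¹ l₁ = l₂ := sub_eq_zero.mp h1
      rw [← h2, apply_inv_self]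
    apply hd'0
    refine hS.isJ.eq_zero_of_mul hd' ?_ h0
    have h3 : t' * ι l₁ = ι (τ⁻¹ l₁) * t' := ht' l₁
    rw [map_sub, sub_mul, ← h3, hl₁, hl₂, mul_assoc, sub_self]
  apply hy0
  rw [ht0, ht'0, add_zero]

/-- Closing the argument from an eigenvector datum. -/
theorem b_close {τ : Gal} (hτ1 : τ ≠ 1) (hτ2 : τ⁻¹ ≠ 1) {t t' : R} (ht : t ∈ E ι τ) (ht' : t' ∈ E ι τ⁻¹)
    (hy : t + t' ∈ J) (hy0 : t + t' ≠ 0) {l₂ : F} (h₂ : t' * t = ι l₂) {w₀ : R} (hw₀ : w₀ ∈ E ι (1 : Gal))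
    (hw0 : w₀ ≠ 0) {ω : F} (hω : ω ≠ 0) (hτω : τ ω = ω) (h : t ^ orderOf τ * w₀ = ι ω * w₀) : False := by
  obtain ⟨a, ha, w, hw, htw⟩ := eigen hτ1 ht hw₀ hw0 hω hτω h
  have h1 : w = ι a⁻¹ * (t * w) := by
    rw [htw, ← mul_assoc, ← map_mul, inv_mul_cancel₀ ha, map_one, one_mul]
  have h2 : t' * w = ι (τ⁻¹ a⁻¹ * l₂) * w := by
    have h3 : t' * ι a⁻¹ = ι (τ⁻¹ a⁻¹) * t' := ht' a⁻¹
    calc t' * w = t' * (ι a⁻¹ * (t * w)) := by rw [← h1]
      _ = (t' * ι a⁻¹) * (t * w) := by rw [mul_assoc]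
      _ = ι (τ⁻¹ a⁻¹) * (t' * t) * w := by rw [h3]; simp only [mul_assoc]
      _ = _ := by rw [h₂, ← map_mul]
  have h3 : (t + t') * w = ι (a + τ⁻¹ a⁻¹ * l₂) * w := by
    rw [add_mul, htw, h2, map_add, add_mul]
  have hpr : pr ι (1 : Gal) (t + t') = 0 := by
    rw [map_add, pr_of_mem_ne ht hτ1, pr_of_mem_ne ht' hτ2, add_zero]
  exact hy0 (close hS hy hpr h3 hw)

/-- The case where the products vanish. -/
theorem case_zero {τ : Gal} (hτ1 : τ ≠ 1) (hτ2 : τ⁻¹ ≠ 1) {t t' : R} (ht : t ∈ E ι τ) (ht' : t' ∈ E ι τ⁻¹)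
    (hy : t + t' ∈ J) (hy0 : t + t' ≠ 0) (ht0 : t ≠ 0) (h₁ : t * t' = 0) (h₂ : t' * t = 0) : False := by
  haveI : Nontrivial R := nontrivialR (R := R) p
  have hpow : ∀ k, (t + t') ^ (k + 1) = t ^ (k + 1) + t' ^ (k + 1) := by
    intro k
    induction k with
    | zero => simp
    | succ k ih =>
      rw [pow_succ, ih]
      have h3 : t ^ (k + 1) * t' = 0 := by rw [pow_succ, mul_assoc, h₁, mul_zero]
      have h4 : t' ^ (k + 1) * t = 0 := by rw [pow_succ, mul_assoc, h₂, mul_zero]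
      rw [add_mul, mul_add, mul_add, h3, h4, add_zero, zero_add, ← pow_succ, ← pow_succ]
  have htt' : ∀ k, t * t' ^ (k + 1) = 0 := by
    intro k
    rw [pow_succ', ← mul_assoc, h₁, zero_mul]
  have ht't : ∀ k, t' ^ (k + 1) * t = 0 := by
    intro k
    rw [pow_succ, mul_assoc, h₂, mul_zero]
  obtain ⟨z, -, hyz, hzy⟩ := hS.isJ.inv _ hy hy0
  let Y : Rˣ := ⟨t + t', z, hyz, hzy⟩
  haveI : Finite Rˣ := Finite.of_injective (fun u : Rˣ => (u : R)) Units.val_injective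
  have hY : (t + t') ^ orderOf Y = 1 := by
    have h3 : ((Y ^ orderOf Y : Rˣ) : R) = 1 := by rw [pow_orderOf_eq_one]; rfl
    rw [Units.val_pow_eq_pow_val] at h3
    exact h3
  obtain ⟨d, hd⟩ : ∃ d, orderOf τ = d + 1 := ⟨orderOf τ - 1, by have := orderOf_pos τ; omega⟩
  have hm0 : 0 < orderOf Y := orderOf_pos Y
  obtain ⟨m, hm⟩ : ∃ m, orderOf Y * orderOf τ = m + 1 := ⟨orderOf Y * orderOf τ - 1, by
    have := Nat.mul_pos hm0 (orderOf_pos τ); omega⟩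
  have hym : (t + t') ^ (m + 1) = 1 := by
    rw [← hm, pow_mul, hY, one_pow]
  have hEd : t ^ orderOf τ ∈ E ι (1 : Gal) := by
    have := pow_mem_E ht (orderOf τ)
    rwa [pow_orderOf_eq_one] at this
  have hEd' : t' ^ orderOf τ ∈ E ι (1 : Gal) := by
    have := pow_mem_E ht' (orderOf τ)
    rwa [inv_pow, pow_orderOf_eq_one, inv_one] at this
  have hyd : (t + t') ^ orderOf τ = t ^ orderOf τ + t' ^ orderOf τ := by
    rw [hd]; exact hpow d
  obtain ⟨ν, hν⟩ := hS.self _ (hS.isJ.pow_mem hy (orderOf τ)) (by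
    rw [hyd]; exact AddSubgroup.add_mem _ hEd hEd')
  have hν0 : ν ≠ 0 := by
    rintro rfl
    rw [map_zero] at hν
    have h3 : (t + t') ^ (orderOf τ * orderOf Y) = 0 := by
      rw [pow_mul, ← hν, zero_pow hm0.ne']
    have h4 : (t + t') ^ (orderOf τ * orderOf Y) = 1 := by
      rw [mul_comm, pow_mul, hY, one_pow]
    exact one_ne_zero (h4.symm.trans h3)
  have hfix : τ ν = ν := by
    have h3 : ι (τ ν) * t = ι ν * t := by
      rw [← ht ν, hν, hyd, mul_add, add_mul, hd, htt', ht't, add_zero, add_zero, ← pow_succ, ← pow_succ']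
    have h4 : ι (τ ν - ν) * t = 0 := by
      rw [map_sub, sub_mul, h3, sub_self]
    have h5 := hS.isJ.eq_zero_of_mul (hS.iota_mem _) h4 ht0
    have h6 : τ ν - ν = 0 := iota_inj p ι (by rw [h5, map_zero])
    exact sub_eq_zero.mp h6
  have hw₀ : t ^ (m + 1) ∈ E ι (1 : Gal) := by
    have := pow_mem_E ht (m + 1)
    have h3 : τ ^ (m + 1) = 1 := by
      rw [← hm, mul_comm, pow_mul, pow_orderOf_eq_one, one_pow]
    rwa [h3] at this
  have hw0 : t ^ (m + 1) ≠ 0 := by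
    intro h0
    rw [hpow, h0, zero_add] at hym
    apply ht0
    have h3 := htt' m
    rw [hym, mul_one] at h3
    exact h3
  have hq : t ^ orderOf τ * t ^ (m + 1) = ι ν * t ^ (m + 1) := by
    rw [hν, hyd, add_mul]
    have h3 : t' ^ orderOf τ * t ^ (m + 1) = 0 := by
      rw [pow_succ' t, ← mul_assoc, hd, ht't, zero_mul]
    rw [h3, add_zero]
  have h₂' : t' * t = ι 0 := by rw [h₂, map_zero]
  exact b_close hS hτ1 hτ2 ht ht' hy hy0 h₂' hw₀ hw0 hν0 hfix hq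

/-- Products of powers are scalars. -/
theorem prod_pow {σ : Gal} {t t' : R} (ht : t ∈ E ι σ) {l : F} (hl : l ≠ 0) (h : t * t' = ι l) (k : ℕ) :
    ∃ μ, μ ≠ 0 ∧ t ^ k * t' ^ k = ι μ := by
  induction k with
  | zero => exact ⟨1, one_ne_zero, by simp⟩
  | succ k ih =>
    obtain ⟨μ, h0, hμ⟩ := ih
    refine ⟨(σ ^ k) l * μ, mul_ne_zero ((map_ne_zero (σ ^ k)).mpr hl) h0, ?_⟩
    have h1 : t ^ k * ι l = ι ((σ ^ k) l) * t ^ k := pow_mem_E ht k l
    calc t ^ (k + 1) * t' ^ (k + 1) = t ^ k * (t * t') * t' ^ k := by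
          rw [pow_succ, pow_succ']; simp only [mul_assoc]
      _ = ι ((σ ^ k) l) * (t ^ k * t' ^ k) := by rw [h, h1, mul_assoc]
      _ = _ := by rw [hμ, map_mul]

end CaseTwo

end Cfsg.Agent.Lib.JF
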