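import Mathlib
import Cfsg.Agent.Lib.JF4

set_option autoImplicit false
set_option linter.unusedSectionVars false
set_option linter.unusedVariables false

namespace Cfsg.Agent.Lib.JF

open scoped BigOperators

section Twist2

variable {R : Type*} [Ring R] [Finite R]

/-- Existence of a twisted element of `d`-th power one with coefficients in a commutative field
inside the ring. -/
theorem exists_twist_one [Nontrivial R] (S : Subring R) (hcomm : ∀ x ∈ S, ∀ y ∈ S, x * y = y * x)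
    (hinv : ∀ x ∈ S, x ≠ 0 → ∃ y ∈ S, x * y = 1) {t ti : R} (htti : t * ti = 1) (htit : ti * t = 1)
    (hconj : ∀ x ∈ S, t * x * ti ∈ S) (hconj' : ∀ x ∈ S, ti * x * t ∈ S) {d : ℕ} (hd0 : 0 < d)
    (hζ : t ^ d ∈ S) (hmin : ∀ i, 0 < i → i < d → ∃ x ∈ S, t ^ i * x ≠ x * t ^ i) :
    ∃ c ∈ S, c ≠ 0 ∧ (c * t) ^ d = 1 := by
  classical
  have hF : IsField S :=
    { exists_pair_ne := ⟨0, 1, by
        intro h
        have := congrArg Subtype.val h
        simp at this⟩
      mul_comm := fun a b => Subtype.ext (hcomm _ a.2 _ b.2)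
      mul_inv_cancel := by
        intro a ha
        obtain ⟨y, hy, hay⟩ := hinv a a.2 (fun h => ha (Subtype.ext h))
        exact ⟨⟨y, hy⟩, Subtype.ext hay⟩ }
  letI : Field S := hF.toField
  haveI : Finite S := inferInstance
  let σ : S ≃+* S :=
    { toFun := fun x => ⟨t * x * ti, hconj x x.2⟩
      invFun := fun x => ⟨ti * x * t, hconj' x x.2⟩
      left_inv := by
        intro x
        apply Subtype.ext
        show ti * (t * x * ti) * t = x
        calc ti * (t * x * ti) * t = (ti * t) * x * (ti * t) := by simp only [mul_assoc]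
          _ = x := by rw [htit, one_mul, mul_one]
      right_inv := by
        intro x
        apply Subtype.ext
        show t * (ti * x * t) * ti = x
        calc t * (ti * x * t) * ti = (t * ti) * x * (t * ti) := by simp only [mul_assoc]
          _ = x := by rw [htti, one_mul, mul_one]
      map_mul' := by
        intro x y
        apply Subtype.ext
        show t * (x * y) * ti = t * x * ti * (t * y * ti)
        calc t * (x * y) * ti = t * x * 1 * y * ti := by simp only [mul_assoc, mul_one]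
          _ = t * x * (ti * t) * y * ti := by rw [htit]
          _ = _ := by simp only [mul_assoc]
      map_add' := by
        intro x y
        apply Subtype.ext
        show t * (x + y) * ti = t * x * ti + t * y * ti
        rw [mul_add, add_mul] }
  have hσ : ∀ x : S, ((σ x : S) : R) = t * x * ti := fun _ => rfl
  have hti : ∀ i : ℕ, ti ^ i * t ^ i = 1 ∧ t ^ i * ti ^ i = 1 := by
    intro i
    induction i with
    | zero => simp
    | succ i ih =>
      constructor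
      · calc ti ^ (i + 1) * t ^ (i + 1) = ti ^ i * (ti * t) * t ^ i := by
              rw [pow_succ, pow_succ']; simp only [mul_assoc]
          _ = 1 := by rw [htit, mul_one, ih.1]
      · calc t ^ (i + 1) * ti ^ (i + 1) = t ^ i * (t * ti) * ti ^ i := by
              rw [pow_succ, pow_succ']; simp only [mul_assoc]
          _ = 1 := by rw [htti, mul_one, ih.2]
  have hit : ∀ (i : ℕ) (x : S), ((σ^[i] x : S) : R) = t ^ i * x * ti ^ i := by
    intro i x
    induction i with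
    | zero => simp
    | succ i ih =>
      rw [Function.iterate_succ_apply', hσ, ih, pow_succ', pow_succ]
      simp only [mul_assoc]
  have hd : ∀ c : S, σ^[d] c = c := by
    intro c
    apply Subtype.ext
    rw [hit]
    have := hcomm _ hζ _ c.2
    rw [this, mul_assoc, (hti d).2, mul_one]
  have hmin' : ∀ i, 0 < i → i < d → ∃ c : S, σ^[i] c ≠ c := by
    intro i h1 h2
    obtain ⟨x, hx, hne⟩ := hmin i h1 h2
    refine ⟨⟨x, hx⟩, ?_⟩
    intro h
    apply hne
    have h3 := congrArg Subtype.val h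
    rw [hit] at h3
    show t ^ i * x = x * t ^ i
    calc t ^ i * x = t ^ i * x * (ti ^ i * t ^ i) := by rw [(hti i).1, mul_one]
      _ = (t ^ i * x * ti ^ i) * t ^ i := by simp only [mul_assoc]
      _ = x * t ^ i := by rw [h3]
  let Z : S := ⟨t ^ d, hζ⟩
  have hZ0 : Z ≠ 0 := by
    intro h
    have h3 := congrArg Subtype.val h
    have h4 : t ^ d = 0 := h3
    have h5 := (hti d).2
    rw [h4, zero_mul] at h5
    exact zero_ne_one h5
  have hZ : σ Z = Z := by
    apply Subtype.ext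
    show t * t ^ d * ti = t ^ d
    rw [← pow_succ', pow_succ, mul_assoc, htti, mul_one]
  obtain ⟨c, hc0, hc⟩ := exists_norm_mul_eq_one σ d hd0 hd hmin' Z hZ0 hZ
  refine ⟨c, c.2, fun h => hc0 (Subtype.ext h), ?_⟩
  have h1 := twist_pow S.subtype σ (t := t) (by
    intro x
    show t * x = (t * x * ti) * t
    rw [mul_assoc, htit, mul_one]) c d
  have h2 : (c : R) * t = S.subtype c * t := rfl
  rw [h2, h1]
  have h3 : S.subtype ((∏ i ∈ Finset.range d, σ^[i] c) * Z) = 1 := by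
    rw [hc]; rfl
  rw [map_mul] at h3
  exact h3

end Twist2

section CaseOdd

variable {p : ℕ} [hp : Fact p.Prime] {F : Type*} [Field F] [Fintype F] [DecidableEq F] [Algebra (ZMod p) F]
  [Fintype (F ≃ₐ[ZMod p] F)]

local notation "Gal" => F ≃ₐ[ZMod p] F

variable {R : Type*} [Ring R] [CharP R p] [Finite R] {ι : F →+* R} {J : AddSubgroup R}

variable (hS : Setup p ι J)

include hS

theorem scalar_fix {τ : Gal} {t : R} (ht : t ∈ E ι τ) (ht0 : t ≠ 0) {ω : F} (h : t * ι ω = ι ω * t) : τ ω = ω := by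
  have h3 : ι (τ ω) * t = ι ω * t := by rw [← ht ω, h]
  have h4 : ι (τ ω - ω) * t = 0 := by
    rw [map_sub, sub_mul, h3, sub_self]
  have h5 := hS.isJ.eq_zero_of_mul (hS.iota_mem _) h4 ht0
  have h6 : τ ω - ω = 0 := iota_inj p ι (by rw [h5, map_zero])
  exact sub_eq_zero.mp h6

theorem case_even {τ : Gal} (hτ : τ * τ ≠ 1) {t t' : R} (ht : t ∈ E ι τ) (ht' : t' ∈ E ι τ⁻¹)
    (hy : t + t' ∈ J) (hy0 : t + t' ≠ 0) {l₁ l₂ : F} (h₁ : t * t' = ι l₁) (h₂ : t' * t = ι l₂) (hl0 : l₁ ≠ 0)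
    {d₁ : ℕ} (hd : orderOf τ = 2 * d₁) : False := by
  haveI : Nontrivial R := nontrivialR (R := R) p
  have hd₁ : 0 < d₁ := by have := orderOf_pos τ; omega
  have hτ1 : τ ≠ 1 := by
    rintro rfl
    simp at hτ
  have hτ2 : τ⁻¹ ≠ 1 := by simpa using hτ1
  let ι₀ : Gal := τ ^ d₁
  have hι1 : ι₀ ≠ 1 := pow_ne_one_of_lt_orderOf hd₁.ne' (by omega)
  have hι2 : ι₀ * ι₀ = 1 := by
    show τ ^ d₁ * τ ^ d₁ = 1
    rw [← pow_add, ← two_mul, ← hd, pow_orderOf_eq_one]
  have hinv : ι₀⁻¹ = ι₀ := inv_eq_of_mul_eq_one_left hι2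
  have hs1 : t ^ d₁ ∈ E ι ι₀ := pow_mem_E ht d₁
  have hs2 : t' ^ d₁ ∈ E ι ι₀ := by
    have := pow_mem_E ht' d₁
    rwa [inv_pow, show τ ^ d₁ = ι₀ from rfl, hinv] at this
  have hr := pow_sub_mem_GG ht ht' d₁ hd₁
  have hpr : pr ι ι₀ ((t + t') ^ d₁ - t ^ d₁ - t' ^ d₁) = 0 := by
    refine pr_GG ?_ hr
    intro j hj1 hj2 heq
    have h3 : τ ^ ((2 * j : ℕ) : ℤ) = 1 := by
      have h4 : τ ^ ((d₁ : ℤ) - 2 * j) = τ ^ (d₁ : ℤ) := by
        rw [heq, zpow_natCast]
      have h5 : ((2 * j : ℕ) : ℤ) = (d₁ : ℤ) - ((d₁ : ℤ) - 2 * j) := by push_cast; ring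
      rw [h5, zpow_sub, h4, mul_inv_cancel]
    rw [zpow_natCast] at h3
    have h4 := orderOf_dvd_of_pow_eq_one h3
    have h5 := Nat.le_of_dvd (by omega) h4
    omega
  have hpr2 : pr ι ι₀ ((t + t') ^ d₁) = t ^ d₁ + t' ^ d₁ := by
    have h3 : (t + t') ^ d₁ = ((t + t') ^ d₁ - t ^ d₁ - t' ^ d₁) + t ^ d₁ + t' ^ d₁ := by abel
    rw [h3, map_add, map_add, hpr, zero_add, pr_of_mem_self hs1, pr_of_mem_self hs2]
  have hsJ : t ^ d₁ + t' ^ d₁ ∈ J := by
    rw [← hpr2]
    exact gl2 hS (hS.isJ.pow_mem hy d₁) hι2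
  by_cases hs0 : t ^ d₁ + t' ^ d₁ = 0
  · obtain ⟨μ, hμ0, hμ⟩ := prod_pow hS ht hl0 h₁ d₁
    have ht0 : t ≠ 0 := by
      rintro rfl
      rw [zero_mul] at h₁
      exact hl0 (iota_inj p ι (by rw [← h₁, map_zero]))
    have hζ : t ^ orderOf τ = ι (-μ) := by
      rw [hd, two_mul, pow_add, map_neg, ← hμ]
      have : t ^ d₁ = -t' ^ d₁ := eq_neg_of_add_eq_zero_left hs0
      nth_rewrite 2 [this]
      rw [mul_neg]
    have hfix : τ (-μ) = -μ := by
      apply scalar_fix hS ht ht0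
      rw [← hζ, ← pow_succ', pow_succ]
    exact b_close hS hτ1 hτ2 ht ht' hy hy0 h₂ one_mem_E_one one_ne_zero (neg_ne_zero.mpr hμ0) hfix
      (by rw [hζ])
  · exact no_pure_inv hS hι1 hι2 (AddSubgroup.add_mem _ hs1 hs2) hsJ hs0

/-- The irreducible case for odd order. -/
theorem case_irred {τ : Gal} (hτ : τ * τ ≠ 1) {t t' : R} (ht : t ∈ E ι τ) (ht' : t' ∈ E ι τ⁻¹)
    (hy : t + t' ∈ J) (hy0 : t + t' ≠ 0) {l₁ l₂ : F} (h₁ : t * t' = ι l₁) (h₂ : t' * t = ι l₂) (hl : l₁ = τ l₂)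
    (hl0 : l₁ ≠ 0) (hd : ¬ 2 ∣ orderOf τ) {ν κ : F}
    (hrel : t ^ orderOf τ * t ^ orderOf τ = ι ν * t ^ orderOf τ - ι κ)
    (hnoroot : ∀ ω : F, ω * ω - ν * ω + κ ≠ 0) : False := by
  classical
  haveI : Nontrivial R := nontrivialR (R := R) p
  set d := orderOf τ with hd_def
  have hd0 : 0 < d := orderOf_pos τ
  have hτ1 : τ ≠ 1 := by
    rintro rfl
    simp at hτ
  have hτ2 : τ⁻¹ ≠ 1 := by simpa using hτ1
  have hne2 : τ⁻¹ ≠ τ := by
    intro h
    apply hτ
    nth_rewrite 1 [← h]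
    exact inv_mul_cancel τ
  have hl₂0 : l₂ ≠ 0 := by
    rintro rfl
    exact hl0 (by rw [hl, map_zero])
  set ζ := t ^ d with hζ_def
  have hζ1 : ζ ∈ E ι (1 : Gal) := by
    have := pow_mem_E ht d
    rwa [hd_def, pow_orderOf_eq_one] at this
  have hζc : ∀ c, ζ * ι c = ι c * ζ := hζ1
  have hζt : t * ζ = ζ * t := by
    rw [hζ_def, ← pow_succ', pow_succ]
  -- inverse of `t`
  obtain ⟨ti, hti⟩ : ∃ ti : R, ti = ι l₂⁻¹ * t' := ⟨_, rfl⟩
  have htit : ti * t = 1 := by
    rw [hti, mul_assoc, h₂, ← map_mul, inv_mul_cancel₀ hl₂0, map_one]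
  have htti : t * ti = 1 := by
    rw [hti]
    have h3 : t * ι l₂⁻¹ = ι (τ l₂⁻¹) * t := ht _
    rw [← mul_assoc, h3, mul_assoc, h₁, ← map_mul, hl, map_inv₀, inv_mul_cancel₀ (by simpa using hl₂0), map_one]
  have ht't : t' = ti * ι l₁ := by
    rw [← h₁, ← mul_assoc, htit, one_mul]
  have hτ_ti : ∀ a, ti * ι a * t = ι (τ⁻¹ a) := by
    intro a
    have h3 : t * ι (τ⁻¹ a) = ι a * t := by rw [ht, apply_inv_self]
    calc ti * ι a * t = ti * (ι a * t) := by rw [mul_assoc]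
      _ = ti * (t * ι (τ⁻¹ a)) := by rw [h3]
      _ = (ti * t) * ι (τ⁻¹ a) := (mul_assoc _ _ _).symm
      _ = _ := by rw [htit, one_mul]
  have hζti : ti * ζ = ζ * ti := by
    calc ti * ζ = ti * ζ * (t * ti) := by rw [htti, mul_one]
      _ = ti * (ζ * t) * ti := by simp only [mul_assoc]
      _ = ti * (t * ζ) * ti := by rw [hζt]
      _ = (ti * t) * ζ * ti := by simp only [mul_assoc]
      _ = ζ * ti := by rw [htit, one_mul]
  have hζF : ∀ ω, ζ ≠ ι ω := by
    intro ω h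
    apply hnoroot ω
    apply iota_inj p ι
    have h3 := hrel
    rw [h, ← map_mul, ← map_mul] at h3
    rw [map_add, map_sub, map_mul, map_mul, map_zero]
    rw [map_mul, map_mul] at h3
    rw [h3]
    abel
  -- the field generated
  have hmulf : ∀ a b c e : F, (ι a + ι b * ζ) * (ι c + ι e * ζ) =
      ι (a * c - b * e * κ) + ι (a * e + b * c + b * e * ν) * ζ := by
    intro a b c e
    have e1 : ι b * ζ * ι c = ι (b * c) * ζ := by
      rw [mul_assoc, hζc, ← mul_assoc, ← map_mul]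
    have e2 : ι b * ζ * (ι e * ζ) = ι (b * e) * (ι ν * ζ - ι κ) := by
      rw [← hrel, map_mul]
      calc ι b * ζ * (ι e * ζ) = ι b * (ζ * ι e) * ζ := by simp only [mul_assoc]
        _ = ι b * (ι e * ζ) * ζ := by rw [hζc]
        _ = _ := by simp only [mul_assoc]
    have e3 : ι a * ι c = ι (a * c) := (map_mul _ _ _).symm
    have e4 : ι a * (ι e * ζ) = ι (a * e) * ζ := by rw [← mul_assoc, ← map_mul]
    have e5 : ι (b * e) * (ι ν * ζ - ι κ) = ι (b * e * ν) * ζ - ι (b * e * κ) := by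
      rw [mul_sub, ← mul_assoc, ← map_mul, ← map_mul]
    rw [add_mul, mul_add, mul_add, e1, e2, e3, e4, e5, map_sub, map_add, map_add, add_mul, add_mul]
    abel
  let S : Subring R :=
    { carrier := {r | ∃ a b : F, r = ι a + ι b * ζ}
      mul_mem' := by
        rintro _ _ ⟨a, b, rfl⟩ ⟨c, e, rfl⟩
        exact ⟨_, _, hmulf a b c e⟩
      one_mem' := ⟨1, 0, by simp⟩
      add_mem' := by
        rintro _ _ ⟨a, b, rfl⟩ ⟨c, e, rfl⟩
        refine ⟨a + c, b + e, ?_⟩
        rw [map_add, map_add, add_mul]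
        abel
      zero_mem' := ⟨0, 0, by simp⟩
      neg_mem' := by
        rintro _ ⟨a, b, rfl⟩
        refine ⟨-a, -b, ?_⟩
        rw [map_neg, map_neg, neg_mul, neg_add] }
  have hSmem : ∀ r, r ∈ S ↔ ∃ a b : F, r = ι a + ι b * ζ := fun _ => Iff.rfl
  have hSι : ∀ a, ι a ∈ S := fun a => ⟨a, 0, by simp⟩
  have hSζ : ζ ∈ S := ⟨0, 1, by simp⟩
  have hSE : ∀ r ∈ S, r ∈ E ι (1 : Gal) := by
    rintro _ ⟨a, b, rfl⟩
    exact AddSubgroup.add_mem _ (iota_mem_E_one a) (iota_mul_mem hζ1 b)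
  have hcomm : ∀ x ∈ S, ∀ y ∈ S, x * y = y * x := by
    rintro _ ⟨a, b, rfl⟩ _ ⟨c, e, rfl⟩
    rw [hmulf, hmulf]
    congr 2
    · congr 1
      · ring
      · ring
    · congr 1
      ring
  have hinv : ∀ x ∈ S, x ≠ 0 → ∃ y ∈ S, x * y = 1 := by
    rintro _ ⟨a, b, rfl⟩ hne
    have hn : a * a + a * b * ν + b * b * κ ≠ 0 := by
      by_cases hb : b = 0
      · subst hb
        intro h
        apply hne
        have : a = 0 := by simpa using h
        simp [this]
      · intro h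
        apply hnoroot (-a / b)
        field_simp
        linear_combination h
    refine ⟨(ι (a + b * ν) + ι (-b) * ζ) * ι (a * a + a * b * ν + b * b * κ)⁻¹,
      S.mul_mem ⟨_, _, rfl⟩ (hSι _), ?_⟩
    rw [← mul_assoc, hmulf]
    have e3 : a * (a + b * ν) - b * -b * κ = a * a + a * b * ν + b * b * κ := by ring
    have e4 : a * -b + b * (a + b * ν) + b * -b * ν = 0 := by ring
    rw [e3, e4, map_zero, zero_mul, add_zero, ← map_mul, mul_inv_cancel₀ hn, map_one]
  have hconj : ∀ x ∈ S, t * x * ti ∈ S := by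
    rintro _ ⟨a, b, rfl⟩
    refine ⟨τ a, τ b, ?_⟩
    have h3 : t * ι a = ι (τ a) * t := ht a
    have h4 : t * ι b = ι (τ b) * t := ht b
    calc t * (ι a + ι b * ζ) * ti = (t * ι a) * ti + (t * ι b) * ζ * ti := by
          rw [mul_add, add_mul]; simp only [mul_assoc]
      _ = ι (τ a) * (t * ti) + ι (τ b) * (t * ζ) * ti := by rw [h3, h4]; simp only [mul_assoc]
      _ = ι (τ a) + ι (τ b) * (ζ * t) * ti := by rw [htti, hζt, mul_one]
      _ = ι (τ a) + ι (τ b) * ζ * (t * ti) := by simp only [mul_assoc]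
      _ = _ := by rw [htti, mul_one]
  have hconj' : ∀ x ∈ S, ti * x * t ∈ S := by
    rintro _ ⟨a, b, rfl⟩
    refine ⟨τ⁻¹ a, τ⁻¹ b, ?_⟩
    calc ti * (ι a + ι b * ζ) * t = ti * ι a * t + ti * ι b * (ζ * t) := by
          rw [mul_add, add_mul]; simp only [mul_assoc]
      _ = ι (τ⁻¹ a) + ti * ι b * (t * ζ) := by rw [hτ_ti, hζt]
      _ = ι (τ⁻¹ a) + (ti * ι b * t) * ζ := by simp only [mul_assoc]
      _ = _ := by rw [hτ_ti]
  have hmin : ∀ i, 0 < i → i < d → ∃ x ∈ S, t ^ i * x ≠ x * t ^ i := by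
    intro i h1 h2
    have hne : τ ^ i ≠ 1 := pow_ne_one_of_lt_orderOf h1.ne' h2
    obtain ⟨a, ha⟩ : ∃ a, (τ ^ i) a ≠ a := by
      by_contra hcon
      push Not at hcon
      exact hne (AlgEquiv.ext hcon)
    refine ⟨ι a, hSι a, ?_⟩
    intro h
    have h3 : t ^ i * ι a = ι ((τ ^ i) a) * t ^ i := pow_mem_E ht i a
    rw [h3] at h
    have htipow : t ^ i * ti ^ i = 1 := by
      have : Commute t ti := by
        show t * ti = ti * t
        rw [htti, htit]
      rw [← this.mul_pow, htti, one_pow]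
    have h4 : ι ((τ ^ i) a) = ι a := by
      calc ι ((τ ^ i) a) = ι ((τ ^ i) a) * (t ^ i * ti ^ i) := by rw [htipow, mul_one]
        _ = (ι ((τ ^ i) a) * t ^ i) * ti ^ i := by rw [mul_assoc]
        _ = (ι a * t ^ i) * ti ^ i := by rw [h]
        _ = ι a := by rw [mul_assoc, htipow, mul_one]
    exact ha (iota_inj p ι h4)
  obtain ⟨c, hcS, hc0, hc⟩ := exists_twist_one S hcomm hinv htti htit hconj hconj' hd0 hSζ hmin
  obtain ⟨e, heS, hce⟩ := hinv c hcS hc0
  have hec : e * c = 1 := by rw [← hcomm c hcS e heS]; exact hce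
  let u : R := c * t
  have hu : u ∈ E ι τ := by
    have := E_mul (hSE c hcS) ht
    rwa [one_mul] at this
  let w : R := ∑ i ∈ Finset.range d, u ^ i
  have huw : u * w = w := by
    have h3 := Finset.sum_range_succ (fun i => u ^ i) d
    have h4 := Finset.sum_range_succ' (fun i => u ^ i) d
    rw [h3] at h4
    simp only [pow_zero] at h4
    have h5 : u ^ d = 1 := hc
    rw [h5] at h4
    have h6 := add_right_cancel h4
    show u * ∑ i ∈ Finset.range d, u ^ i = ∑ i ∈ Finset.range d, u ^ i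
    refine Eq.trans ?_ h6.symm
    rw [Finset.mul_sum]
    refine Finset.sum_congr rfl fun i _ => ?_
    rw [pow_succ']
  have hw1 : pr ι (1 : Gal) w = 1 := by
    show pr ι (1 : Gal) (∑ i ∈ Finset.range d, u ^ i) = 1
    rw [map_sum]
    obtain ⟨m, hm⟩ : ∃ m, d = m + 1 := ⟨d - 1, by omega⟩
    rw [hm, Finset.sum_range_succ']
    simp only [pow_zero, pr_of_mem_self (one_mem_E_one (ι := ι) (p := p))]
    rw [Finset.sum_eq_zero, zero_add]
    intro i hi
    have hi' : i < m := Finset.mem_range.mp hi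
    exact pr_of_mem_ne (pow_mem_E hu _) (pow_ne_one_of_lt_orderOf (by omega) (by omega))
  have hw0 : w ≠ 0 := by
    intro h0
    rw [h0, map_zero] at hw1
    exact zero_ne_one hw1
  have htw : t * w = e * w := by
    have h3 : c * t * w = w := huw
    calc t * w = (e * c) * (t * w) := by rw [hec, one_mul]
      _ = e * (c * t * w) := by simp only [mul_assoc]
      _ = e * w := by rw [h3]
  -- preservation
  let Pres : R → Prop := fun z => ∀ x ∈ S, ∃ x' ∈ S, z * (x * w) = x' * w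
  have hPι : ∀ a, Pres (ι a) := fun a x hx => ⟨ι a * x, S.mul_mem (hSι a) hx, by rw [mul_assoc]⟩
  have hPt : Pres t := by
    intro x hx
    refine ⟨t * x * ti * e, S.mul_mem (hconj x hx) heS, ?_⟩
    calc t * (x * w) = t * x * (ti * t) * w := by rw [htit, mul_one, mul_assoc]
      _ = t * x * ti * (t * w) := by simp only [mul_assoc]
      _ = _ := by rw [htw]; exact (mul_assoc _ _ _).symm
  have hPti : Pres ti := by
    intro x hx
    have hm : x * c ∈ S := S.mul_mem hx hcS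
    refine ⟨ti * (x * c) * t, hconj' _ hm, ?_⟩
    obtain ⟨x'', hx'', hx3⟩ := hPt (ti * (x * c) * t) (hconj' _ hm)
    have h3 : t * (ti * (x * c) * t * w) = (x * c) * (t * w) := by
      calc t * (ti * (x * c) * t * w) = (t * ti) * (x * c) * (t * w) := by simp only [mul_assoc]
        _ = _ := by rw [htti, one_mul]
    have h4 : (x * c) * (t * w) = x * w := by
      rw [htw]
      calc x * c * (e * w) = x * (c * e) * w := by simp only [mul_assoc]
        _ = x * w := by rw [hce, mul_one]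
    calc ti * (x * w) = ti * (t * (ti * (x * c) * t * w)) := by rw [h3, h4]
      _ = (ti * t) * (ti * (x * c) * t * w) := by simp only [mul_assoc]
      _ = _ := by rw [htit, one_mul]
  have hPmul : ∀ z₁ z₂, Pres z₁ → Pres z₂ → Pres (z₁ * z₂) := by
    intro z₁ z₂ h1 h2 x hx
    obtain ⟨x₂, hx₂, h3⟩ := h2 x hx
    obtain ⟨x₁, hx₁, h4⟩ := h1 x₂ hx₂
    exact ⟨x₁, hx₁, by rw [mul_assoc, h3, h4]⟩
  have hPadd : ∀ z₁ z₂, Pres z₁ → Pres z₂ → Pres (z₁ + z₂) := by
    intro z₁ z₂ h1 h2 x hx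
    obtain ⟨x₂, hx₂, h3⟩ := h2 x hx
    obtain ⟨x₁, hx₁, h4⟩ := h1 x hx
    exact ⟨x₁ + x₂, S.add_mem hx₁ hx₂, by rw [add_mul, h3, h4, add_mul]⟩
  have hPt' : Pres t' := by
    rw [ht't]
    exact hPmul _ _ hPti (hPι _)
  -- families
  have hττ : τ⁻¹ * τ⁻¹ = (τ * τ)⁻¹ := by rw [mul_inv_rev]
  have hs : t * t ∈ E ι (τ * τ) := E_mul ht ht
  have hs' : t' * t' ∈ E ι (τ * τ)⁻¹ := by
    rw [← hττ]
    exact E_mul ht' ht'
  have hyy : t * t + t' * t' ∈ J := by
    have h3 : (t + t') * 1 * (t + t') ∈ J := hS.isJ.hua hy hS.isJ.one_mem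
    have h4 : t * t + t' * t' = (t + t') * 1 * (t + t') - ι (l₁ + l₂) := by
      rw [map_add, ← h₁, ← h₂]
      noncomm_ring
    rw [h4]
    exact J.sub_mem h3 (hS.iota_mem _)
  have hτ4 : (τ * τ) * (τ * τ) ≠ 1 := by
    intro h
    have h3 : orderOf τ ∣ 4 := by
      apply orderOf_dvd_of_pow_eq_one
      have : τ ^ 4 = τ * τ * (τ * τ) := by simp only [pow_succ, pow_zero, one_mul, mul_assoc]
      rw [this, h]
    have h5 : Nat.Coprime 2 d := (Nat.Prime.coprime_iff_not_dvd Nat.prime_two).mpr hd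
    have h6 : d ∣ 1 := by
      have : (4 : ℕ) = 2 * 2 := by norm_num
      rw [this] at h3
      have h7 := h5.symm.dvd_of_dvd_mul_left h3
      exact h5.symm.dvd_of_dvd_mul_left (by simpa using h7)
    have h7 : orderOf τ = 1 := Nat.dvd_one.mp h6
    exact hτ1 (orderOf_eq_one_iff.mp h7)
  let Ψ : F × F × F → R := fun x =>
    ι x.1 + (ι x.2.1 * t + ι (τ⁻¹ x.2.1) * t') + (ι x.2.2 * (t * t) + ι ((τ * τ)⁻¹ x.2.2) * (t' * t'))
  have hΨJ : ∀ x, Ψ x ∈ J := by
    intro x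
    exact J.add_mem (J.add_mem (hS.iota_mem _) (fam hS hτ ht ht' hy _)) (fam hS hτ4 hs hs' hyy _)
  have hΨP : ∀ x, Pres (Ψ x) := by
    intro x
    refine hPadd _ _ (hPadd _ _ (hPι _) (hPadd _ _ (hPmul _ _ (hPι _) hPt) (hPmul _ _ (hPι _) hPt')))
      (hPadd _ _ (hPmul _ _ (hPι _) (hPmul _ _ hPt hPt)) (hPmul _ _ (hPι _) (hPmul _ _ hPt' hPt')))
  -- invertibility of `t` on the right
  have hcancel : ∀ a b : F, ι a * t = ι b * t → a = b := by
    intro a b h
    apply iota_inj p ι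
    calc ι a = ι a * (t * ti) := by rw [htti, mul_one]
      _ = ι a * t * ti := by rw [mul_assoc]
      _ = ι b * t * ti := by rw [h]
      _ = ι b := by rw [mul_assoc, htti, mul_one]
  have hcancel2 : ∀ a b : F, ι a * (t * t) = ι b * (t * t) → a = b := by
    intro a b h
    apply hcancel
    calc ι a * t = ι a * t * (t * ti) := by rw [htti, mul_one]
      _ = ι a * (t * t) * ti := by simp only [mul_assoc]
      _ = ι b * (t * t) * ti := by rw [h]
      _ = ι b * t * (t * ti) := by simp only [mul_assoc]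
      _ = ι b * t := by rw [htti, mul_one]
  have hinj : Function.Injective Ψ := by
    rintro ⟨c₁, α₁, β₁⟩ ⟨c₂, α₂, β₂⟩ hΨ
    simp only [Ψ] at hΨ
    have hτ3 : τ * τ ≠ τ := by
      intro h
      exact hτ1 (mul_eq_right.mp h)
    have hτ5 : (τ * τ)⁻¹ ≠ 1 := inv_ne_one.mpr hτ
    have hpr1 : ∀ c α β, pr ι (1 : Gal) (ι c + (ι α * t + ι (τ⁻¹ α) * t') +
        (ι β * (t * t) + ι ((τ * τ)⁻¹ β) * (t' * t'))) = ι c := by
      intro c α β
      rw [map_add, map_add, map_add, map_add, pr_of_mem_self (iota_mem_E_one c),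
        pr_of_mem_ne (iota_mul_mem ht _) hτ1, pr_of_mem_ne (iota_mul_mem ht' _) hτ2,
        pr_of_mem_ne (iota_mul_mem hs _) hτ, pr_of_mem_ne (iota_mul_mem hs' _) hτ5]
      simp
    have hc₁ : c₁ = c₂ := by
      apply iota_inj p ι
      rw [← hpr1 c₁ α₁ β₁, ← hpr1 c₂ α₂ β₂, hΨ]
    subst hc₁
    by_cases h3 : (τ * τ)⁻¹ = τ
    · -- order three
      have hpr2 : ∀ c α β, pr ι τ (ι c + (ι α * t + ι (τ⁻¹ α) * t') +
          (ι β * (t * t) + ι ((τ * τ)⁻¹ β) * (t' * t'))) = ι α * t + ι ((τ * τ)⁻¹ β) * (t' * t') := by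
        intro c α β
        have hs'' : ι ((τ * τ)⁻¹ β) * (t' * t') ∈ E ι τ := by
          have h30 : t' * t' ∈ E ι τ := by
            rw [h3] at hs'
            exact hs'
          exact iota_mul_mem h30 _
        rw [map_add, map_add, map_add, map_add, pr_of_mem_ne (iota_mem_E_one c) hτ1.symm,
          pr_of_mem_self (iota_mul_mem ht _), pr_of_mem_ne (iota_mul_mem ht' _) hne2,
          pr_of_mem_ne (iota_mul_mem hs _) hτ3, pr_of_mem_self hs'']
        simp
      have h4 := hpr2 c₁ α₁ β₁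
      rw [hΨ, hpr2 c₁ α₂ β₂] at h4
      have hzz : t' * t' * (t * t) = ι (τ⁻¹ l₂ * l₂) := by
        calc t' * t' * (t * t) = t' * (t' * t) * t := by simp only [mul_assoc]
          _ = t' * ι l₂ * t := by rw [h₂]
          _ = ι (τ⁻¹ l₂) * (t' * t) := by
              have : t' * ι l₂ = ι (τ⁻¹ l₂) * t' := ht' l₂
              rw [this, mul_assoc]
          _ = _ := by rw [h₂, ← map_mul]
      have hd3 : t * t * t = ζ := by
        have h5 : orderOf τ = 3 := by
          apply orderOf_eq_prime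
          · have h6 : τ * τ * τ = 1 := by
              have := mul_eq_one_iff_eq_inv.mpr h3.symm
              rwa [show τ * (τ * τ) = τ * τ * τ by rw [mul_assoc]] at this
            rw [show τ ^ 3 = τ * τ * τ by simp only [pow_succ, pow_zero, one_mul]]
            exact h6
          · exact hτ1
        rw [hζ_def, hd_def, h5]
        simp only [pow_succ, pow_zero, one_mul]
      have h6 : ι (α₂ - α₁) * ζ = ι ((τ * τ)⁻¹ (β₁ - β₂) * (τ⁻¹ l₂ * l₂)) := by
        have h7 : ι (α₂ - α₁) * t = ι ((τ * τ)⁻¹ (β₁ - β₂)) * (t' * t') := by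
          have h8 : ι α₂ * t - ι α₁ * t = ι ((τ * τ)⁻¹ β₁) * (t' * t') - ι ((τ * τ)⁻¹ β₂) * (t' * t') := by
            rw [sub_eq_sub_iff_add_eq_add, h4]
            abel
          rw [map_sub, sub_mul, h8, map_sub, map_sub, sub_mul]
        rw [← hd3]
        calc ι (α₂ - α₁) * (t * t * t) = ι (α₂ - α₁) * t * (t * t) := by simp only [mul_assoc]
          _ = ι ((τ * τ)⁻¹ (β₁ - β₂)) * (t' * t') * (t * t) := by rw [h7]
          _ = ι ((τ * τ)⁻¹ (β₁ - β₂)) * (t' * t' * (t * t)) := by simp only [mul_assoc]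
          _ = _ := by rw [hzz, ← map_mul]
      have hα : α₁ = α₂ := by
        by_contra hne
        have h0 : α₂ - α₁ ≠ 0 := sub_ne_zero.mpr (Ne.symm hne)
        apply hζF (((α₂ - α₁)⁻¹) * ((τ * τ)⁻¹ (β₁ - β₂) * (τ⁻¹ l₂ * l₂)))
        rw [map_mul, ← h6, ← mul_assoc, ← map_mul, inv_mul_cancel₀ h0, map_one, one_mul]
      subst hα
      have h7 : ι ((τ * τ)⁻¹ β₁) * (t' * t') = ι ((τ * τ)⁻¹ β₂) * (t' * t') := (add_left_cancel h4).symm
      have h8 : ι ((τ * τ)⁻¹ β₁) * ι (τ⁻¹ l₂ * l₂) = ι ((τ * τ)⁻¹ β₂) * ι (τ⁻¹ l₂ * l₂) := by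
        calc ι ((τ * τ)⁻¹ β₁) * ι (τ⁻¹ l₂ * l₂) = ι ((τ * τ)⁻¹ β₁) * (t' * t' * (t * t)) := by rw [hzz]
          _ = (ι ((τ * τ)⁻¹ β₁) * (t' * t')) * (t * t) := (mul_assoc _ _ _).symm
          _ = (ι ((τ * τ)⁻¹ β₂) * (t' * t')) * (t * t) := by rw [h7]
          _ = ι ((τ * τ)⁻¹ β₂) * (t' * t' * (t * t)) := mul_assoc _ _ _
          _ = _ := by rw [hzz]
      have h9 : (τ * τ)⁻¹ β₁ * (τ⁻¹ l₂ * l₂) = (τ * τ)⁻¹ β₂ * (τ⁻¹ l₂ * l₂) := by
        apply iota_inj p ι
        rw [map_mul, map_mul _ _ (τ⁻¹ l₂ * l₂)]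
        exact h8
      have h10 : τ⁻¹ l₂ * l₂ ≠ 0 := mul_ne_zero ((map_ne_zero _).mpr hl₂0) hl₂0
      have h11 := mul_right_cancel₀ h10 h9
      have h12 : β₁ = β₂ := ((τ * τ)⁻¹).injective h11
      rw [h12]
    · -- order at least five
      have h3' : τ⁻¹ ≠ τ * τ := by
        intro h
        apply h3
        rw [← h, inv_inv]
      have hτ6 : (τ * τ)⁻¹ ≠ τ * τ := by
        intro h
        apply hτ4
        nth_rewrite 1 [← h]
        exact inv_mul_cancel _
      have hpr2 : ∀ c α β, pr ι τ (ι c + (ι α * t + ι (τ⁻¹ α) * t') +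
          (ι β * (t * t) + ι ((τ * τ)⁻¹ β) * (t' * t'))) = ι α * t := by
        intro c α β
        rw [map_add, map_add, map_add, map_add, pr_of_mem_ne (iota_mem_E_one c) hτ1.symm,
          pr_of_mem_self (iota_mul_mem ht _), pr_of_mem_ne (iota_mul_mem ht' _) hne2,
          pr_of_mem_ne (iota_mul_mem hs _) hτ3, pr_of_mem_ne (iota_mul_mem hs' _) h3]
        simp
      have hpr3 : ∀ c α β, pr ι (τ * τ) (ι c + (ι α * t + ι (τ⁻¹ α) * t') +
          (ι β * (t * t) + ι ((τ * τ)⁻¹ β) * (t' * t'))) = ι β * (t * t) := by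
        intro c α β
        rw [map_add, map_add, map_add, map_add, pr_of_mem_ne (iota_mem_E_one c) hτ.symm,
          pr_of_mem_ne (iota_mul_mem ht _) hτ3.symm, pr_of_mem_ne (iota_mul_mem ht' _) h3',
          pr_of_mem_self (iota_mul_mem hs _), pr_of_mem_ne (iota_mul_mem hs' _) hτ6]
        simp
      have hα : α₁ = α₂ := by
        apply hcancel
        rw [← hpr2 c₁ α₁ β₁, ← hpr2 c₁ α₂ β₂, hΨ]
      have hβ : β₁ = β₂ := by
        apply hcancel2
        rw [← hpr3 c₁ α₁ β₁, ← hpr3 c₁ α₂ β₂, hΨ]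
      rw [hα, hβ]
  have hch : ∀ x, ∃ x' ∈ S, Ψ x * w = x' * w := by
    intro x
    obtain ⟨x', hx', h⟩ := hΨP x 1 S.one_mem
    exact ⟨x', hx', by simpa using h⟩
  choose Φ hΦS hΦ using hch
  have hΦinj : Function.Injective (fun x => (⟨Φ x, hΦS x⟩ : S)) := by
    intro x y hxy
    have h3 : Φ x = Φ y := congrArg Subtype.val hxy
    apply hinj
    apply hS.isJ.eq_of_mul_eq (hΨJ x) (hΨJ y) _ hw0
    rw [hΦ, hΦ, h3]
  have hG : Function.Surjective (fun x : F × F => (⟨ι x.1 + ι x.2 * ζ, x.1, x.2, rfl⟩ : S)) := by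
    rintro ⟨r, a, b, rfl⟩
    exact ⟨(a, b), rfl⟩
  have hc1 := Nat.card_le_card_of_injective _ hΦinj
  have hc2 := Nat.card_le_card_of_surjective _ hG
  rw [Nat.card_prod, Nat.card_prod] at hc1
  rw [Nat.card_prod] at hc2
  have hF2 : 1 < Nat.card F := Finite.one_lt_card
  have hF3 : 0 < Nat.card F := by omega
  have h5 : Nat.card F * (Nat.card F * Nat.card F) ≤ Nat.card F * Nat.card F := hc1.trans hc2
  nlinarith [Nat.mul_le_mul_right (Nat.card F * Nat.card F) (Nat.succ_le_of_lt hF2)]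

/-- The case of odd order. -/
theorem case_odd {τ : Gal} (hτ : τ * τ ≠ 1) {t t' : R} (ht : t ∈ E ι τ) (ht' : t' ∈ E ι τ⁻¹)
    (hy : t + t' ∈ J) (hy0 : t + t' ≠ 0) {l₁ l₂ : F} (h₁ : t * t' = ι l₁) (h₂ : t' * t = ι l₂) (hl : l₁ = τ l₂)
    (hl0 : l₁ ≠ 0) (hd : ¬ 2 ∣ orderOf τ) : False := by
  classical
  haveI : Nontrivial R := nontrivialR (R := R) p
  have hd0 : 0 < orderOf τ := orderOf_pos τ
  have hτ1 : τ ≠ 1 := by
    rintro rfl
    simp at hτ
  have hτ2 : τ⁻¹ ≠ 1 := by simpa using hτ1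
  have hl₂0 : l₂ ≠ 0 := by
    rintro rfl
    exact hl0 (by rw [hl, map_zero])
  have ht0 : t ≠ 0 := by
    rintro rfl
    rw [zero_mul] at h₁
    exact hl0 (iota_inj p ι (by rw [← h₁, map_zero]))
  have hE1 : t ^ orderOf τ ∈ E ι (1 : Gal) := by
    have := pow_mem_E ht (orderOf τ)
    rwa [pow_orderOf_eq_one] at this
  have hE2 : t' ^ orderOf τ ∈ E ι (1 : Gal) := by
    have := pow_mem_E ht' (orderOf τ)
    rwa [inv_pow, pow_orderOf_eq_one, inv_one] at this
  have hr := pow_sub_mem_GG ht ht' (orderOf τ) hd0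
  have hpr : pr ι (1 : Gal) ((t + t') ^ orderOf τ - t ^ orderOf τ - t' ^ orderOf τ) = 0 := by
    refine pr_GG ?_ hr
    intro j hj1 hj2 heq
    have h3 : τ ^ ((2 * j : ℕ) : ℤ) = 1 := by
      have h5 : ((2 * j : ℕ) : ℤ) = ((orderOf τ : ℕ) : ℤ) - (((orderOf τ : ℕ) : ℤ) - 2 * j) := by push_cast; ring
      rw [h5, zpow_sub, heq, zpow_natCast, pow_orderOf_eq_one]
      simp
    rw [zpow_natCast] at h3
    have h4 := orderOf_dvd_of_pow_eq_one h3
    have h5 : Nat.Coprime 2 (orderOf τ) := (Nat.Prime.coprime_iff_not_dvd Nat.prime_two).mpr hd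
    have h6 := h5.symm.dvd_of_dvd_mul_left h4
    have h7 := Nat.le_of_dvd (by omega) h6
    omega
  have hpr2 : pr ι (1 : Gal) ((t + t') ^ orderOf τ) = t ^ orderOf τ + t' ^ orderOf τ := by
    have h3 : (t + t') ^ orderOf τ = ((t + t') ^ orderOf τ - t ^ orderOf τ - t' ^ orderOf τ) + t ^ orderOf τ
        + t' ^ orderOf τ := by abel
    rw [h3, map_add, map_add, hpr, zero_add, pr_of_mem_self hE1, pr_of_mem_self hE2]
  have hsJ : t ^ orderOf τ + t' ^ orderOf τ ∈ J := by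
    rw [← hpr2]
    exact gl2 hS (hS.isJ.pow_mem hy _) (by simp)
  obtain ⟨ν, hν⟩ := hS.self _ hsJ (AddSubgroup.add_mem _ hE1 hE2)
  obtain ⟨κ, hκ0, hκ⟩ := prod_pow hS ht' hl₂0 h₂ (orderOf τ)
  have hrel : t ^ orderOf τ * t ^ orderOf τ = ι ν * t ^ orderOf τ - ι κ := by
    rw [hν, add_mul, hκ]
    abel
  have hτinv : (τ⁻¹) ^ (orderOf τ - 1) = τ := by
    have h3 : τ ^ (orderOf τ - 1) * τ = 1 := by
      rw [← pow_succ]
      have : orderOf τ - 1 + 1 = orderOf τ := by omega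
      rw [this, pow_orderOf_eq_one]
    rw [inv_pow]
    exact inv_eq_of_mul_eq_one_right h3
  have hcomm' : t * t' ^ orderOf τ = t' ^ orderOf τ * t := by
    obtain ⟨e, he⟩ : ∃ e, orderOf τ = e + 1 := ⟨orderOf τ - 1, by omega⟩
    have hτinv' : (τ⁻¹) ^ e = τ := by
      have : orderOf τ - 1 = e := by omega
      rwa [this] at hτinv
    have h4 : t * t' ^ (e + 1) = ι l₁ * t' ^ e := by rw [pow_succ', ← mul_assoc, h₁]
    have h5 : t' ^ (e + 1) * t = t' ^ e * ι l₂ := by rw [pow_succ, mul_assoc, h₂]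
    have h3 : t' ^ e * ι l₂ = ι (((τ⁻¹) ^ e) l₂) * t' ^ e := pow_mem_E ht' e l₂
    rw [he, h4, h5, h3, hτinv', hl]
  have hcomm : t * t ^ orderOf τ = t ^ orderOf τ * t := by
    rw [← pow_succ', pow_succ]
  have hfixν : τ ν = ν := by
    apply scalar_fix hS ht ht0
    rw [hν, mul_add, add_mul, hcomm, hcomm']
  have hfixκ : τ κ = κ := by
    apply scalar_fix hS ht ht0
    rw [← hκ]
    calc t * (t' ^ orderOf τ * t ^ orderOf τ) = (t * t' ^ orderOf τ) * t ^ orderOf τ := (mul_assoc _ _ _).symm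
      _ = t' ^ orderOf τ * (t * t ^ orderOf τ) := by rw [hcomm', mul_assoc]
      _ = _ := by rw [hcomm, mul_assoc]
  by_cases hroot : ∃ ω : F, ω * ω - ν * ω + κ = 0
  · obtain ⟨ω, hω⟩ := hroot
    have hω0 : ω ≠ 0 := by
      rintro rfl
      apply hκ0
      simpa using hω
    set ω₁ := ν - ω with hω₁
    have hprod : ω * ω₁ = κ := by
      rw [hω₁]
      linear_combination -hω
    have hω₁0 : ω₁ ≠ 0 := by
      rintro h
      rw [h, mul_zero] at hprod
      exact hκ0 hprod.symm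
    have hfix : τ ω = ω := by
      have h3 : (τ ω - ω) * (τ ω - ω₁) = 0 := by
        have h4 : τ (ω * ω - ν * ω + κ) = 0 := by rw [hω, map_zero]
        rw [map_add, map_sub, map_mul, map_mul, hfixν, hfixκ] at h4
        rw [hω₁]
        rw [← hprod, hω₁] at h4
        linear_combination h4
      rcases mul_eq_zero.mp h3 with h4 | h4
      · exact sub_eq_zero.mp h4
      · have h5 : τ ω = ω₁ := sub_eq_zero.mp h4
        have h6 : τ ω₁ = ω := by
          rw [hω₁, map_sub, hfixν, h5, hω₁]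
          ring
        have h7 : ∀ k, (τ ^ (2 * k)) ω₁ = ω₁ := by
          intro k
          induction k with
          | zero => simp
          | succ k ih =>
            rw [show 2 * (k + 1) = 2 * k + 1 + 1 by ring, pow_succ, pow_succ, AlgEquiv.mul_apply,
              AlgEquiv.mul_apply, h6, h5, ih]
        obtain ⟨k, hk⟩ : ∃ k, orderOf τ = 2 * k + 1 := by
          have : orderOf τ % 2 = 1 := by omega
          exact ⟨orderOf τ / 2, by omega⟩
        have h8 : (τ ^ orderOf τ) ω = ω := by rw [pow_orderOf_eq_one]; rfl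
        rw [hk, pow_succ, AlgEquiv.mul_apply, h5, h7] at h8
        rw [h5, h8]
    have hfix₁ : τ ω₁ = ω₁ := by
      rw [hω₁, map_sub, hfixν, hfix]
    by_cases h0 : t ^ orderOf τ = ι ω₁
    · exact b_close hS hτ1 hτ2 ht ht' hy hy0 h₂ one_mem_E_one one_ne_zero hω₁0 hfix₁ (by rw [h0])
    · refine b_close hS hτ1 hτ2 ht ht' hy hy0 h₂ (w₀ := t ^ orderOf τ - ι ω₁)
        (AddSubgroup.sub_mem _ hE1 (iota_mem_E_one _)) (sub_ne_zero.mpr h0) hω0 hfix ?_
      have h3 : t ^ orderOf τ * ι ω₁ = ι ω₁ * t ^ orderOf τ := hE1 ω₁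
      rw [mul_sub, mul_sub, hrel, h3, ← map_mul, ← hprod, hω₁]
      have h4 : ι ν = ι ω + ι (ν - ω) := by rw [← map_add]; congr 1; ring
      rw [h4]
      noncomm_ring
  · push Not at hroot
    exact case_irred hS hτ ht ht' hy hy0 h₁ h₂ hl hl0 hd hrel hroot

/-- The case of a pair. -/
theorem case_pair {τ : Gal} (hτ : τ * τ ≠ 1) {t t' : R} (ht : t ∈ E ι τ) (ht' : t' ∈ E ι τ⁻¹)
    (hy : t + t' ∈ J) (hy0 : t + t' ≠ 0) : False := by
  have hτ1 : τ ≠ 1 := by
    rintro rfl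
    simp at hτ
  have hτ2 : τ⁻¹ ≠ 1 := by simpa using hτ1
  obtain ⟨l₁, l₂, h₁, h₂, hl⟩ := prod_in_F hS hτ ht ht' hy hy0
  by_cases hl0 : l₁ = 0
  · have hl₂ : l₂ = 0 := by
      rw [hl0] at hl
      have := (map_eq_zero τ).mp hl.symm
      exact this
    have h1 : t * t' = 0 := by rw [h₁, hl0, map_zero]
    have h2 : t' * t = 0 := by rw [h₂, hl₂, map_zero]
    by_cases ht0 : t = 0
    · have ht'0 : t' ≠ 0 := by
        rintro rfl
        apply hy0
        rw [ht0, add_zero]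
      have ht'' : t ∈ E ι (τ⁻¹)⁻¹ := by rwa [inv_inv]
      have hy' : t' + t ∈ J := by rwa [add_comm]
      have hy0' : t' + t ≠ 0 := by rwa [add_comm]
      exact case_zero hS hτ2 (by simpa using hτ1) ht' ht'' hy' hy0' ht'0 h2 h1
    · exact case_zero hS hτ1 hτ2 ht ht' hy hy0 ht0 h1 h2
  · by_cases hd : 2 ∣ orderOf τ
    · obtain ⟨d₁, hd₁⟩ := hd
      exact case_even hS hτ ht ht' hy hy0 h₁ h₂ hl0 hd₁
    · exact case_odd hS hτ ht ht' hy hy0 h₁ h₂ hl hl0 hd

/-- The main theorem on self-centralizing subfields. -/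
theorem main_field {z : R} (hz : z ∈ J) : ∃ c, ι c = z := by
  classical
  by_contra hcon
  have hz1 : z ∉ E ι (1 : Gal) := fun h => hcon (hS.self z hz h)
  have hsum := pr_sum (ι := ι) (p := p) z
  have hex : ∃ σ : Gal, σ ≠ 1 ∧ pr ι σ z ≠ 0 := by
    by_contra hno
    push Not at hno
    apply hz1
    rw [← hsum, Finset.sum_eq_single (1 : Gal)]
    · exact pr_mem _ _
    · intro b _ hb
      exact hno b hb
    · simp
  by_cases hpair : ∃ σ : Gal, σ * σ ≠ 1 ∧ pr ι σ z + pr ι σ⁻¹ z ≠ 0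
  · obtain ⟨σ, h1, h2⟩ := hpair
    exact case_pair hS h1 (pr_mem σ z) (pr_mem σ⁻¹ z) (gl1 hS hz σ) h2
  · push Not at hpair
    obtain ⟨σ, h1, h2⟩ := hex
    by_cases h3 : σ * σ = 1
    · exact no_pure_inv hS h1 h3 (pr_mem σ z) (gl2 hS hz h3) h2
    · have h4 := hpair σ h3
      have hne2 : σ⁻¹ ≠ σ := by
        intro h
        apply h3
        nth_rewrite 1 [← h]
        exact inv_mul_cancel σ
      have h5 : pr ι σ (pr ι σ z + pr ι σ⁻¹ z) = pr ι σ z := by
        rw [map_add, pr_of_mem_self (pr_mem σ z), pr_of_mem_ne (pr_mem σ⁻¹ z) hne2, add_zero]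
      rw [h4, map_zero] at h5
      exact h2 h5.symm

end CaseOdd

end Cfsg.Agent.Lib.JF
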