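import Mathlib
import Cfsg.Agent.Lib.JF5

set_option autoImplicit false
set_option linter.unusedSectionVars false
set_option linter.unusedVariables false

namespace Cfsg.Agent.Lib.JF

open scoped BigOperators

section Top

variable {R : Type*} [Ring R] [Finite R]

/-- The theorem: a finite additive subgroup of a ring of prime characteristic, containing `1`,
all of whose nonzero elements are invertible with inverses in the subgroup, is commutative. -/
theorem comm_of_isJ (p : ℕ) [hp : Fact p.Prime] [CharP R p] (J : AddSubgroup R) (hJ : IsJ J) :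
    ∀ x ∈ J, ∀ y ∈ J, x * y = y * x := by
  classical
  induction hc : Nat.card J using Nat.strong_induction_on generalizing J with
  | _ n ih =>
    by_contra hcon
    push Not at hcon
    obtain ⟨a, ha, b, hb, hab⟩ := hcon
    let J₁ : AddSubgroup R :=
      { carrier := {z | z ∈ J ∧ z * a = a * z}
        add_mem' := by
          rintro x y ⟨h1, h2⟩ ⟨h3, h4⟩
          exact ⟨J.add_mem h1 h3, by rw [add_mul, mul_add, h2, h4]⟩
        zero_mem' := ⟨J.zero_mem, by simp⟩
        neg_mem' := by
          rintro x ⟨h1, h2⟩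
          exact ⟨J.neg_mem h1, by rw [neg_mul, mul_neg, h2]⟩ }
    have hJ₁ : IsJ J₁ :=
      { one_mem := ⟨hJ.one_mem, by simp⟩
        inv := by
          rintro x ⟨h1, h2⟩ h0
          obtain ⟨y, hy, h3, h4⟩ := hJ.inv x h1 h0
          refine ⟨y, ⟨hy, ?_⟩, h3, h4⟩
          calc y * a = y * a * (x * y) := by rw [h3, mul_one]
            _ = y * (a * x) * y := by simp only [mul_assoc]
            _ = y * (x * a) * y := by rw [h2]
            _ = (y * x) * a * y := by simp only [mul_assoc]
            _ = a * y := by rw [h4, one_mul] }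
    have hlt : Nat.card J₁ < n := by
      have h1 : Nat.card J₁ = (J₁ : Set R).ncard := Nat.card_coe_set_eq _
      have h2 : Nat.card J = (J : Set R).ncard := Nat.card_coe_set_eq _
      rw [← hc, h1, h2]
      apply Set.ncard_lt_ncard _ (Set.toFinite _)
      refine ⟨fun z hz => hz.1, fun h => ?_⟩
      have := (h hb).2
      exact hab this.symm
    have hc₁ := ih _ hlt J₁ hJ₁ rfl
    let S : Subring R :=
      { carrier := {z | z ∈ J ∧ z * a = a * z}
        mul_mem' := by
          rintro x y hx hy
          refine ⟨hJ.mul_mem_of_commute p hx.1 hy.1 (hc₁ x hx y hy), ?_⟩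
          rw [mul_assoc, hy.2, ← mul_assoc, hx.2, mul_assoc]
        one_mem' := ⟨hJ.one_mem, by simp⟩
        add_mem' := fun hx hy => J₁.add_mem hx hy
        zero_mem' := J₁.zero_mem
        neg_mem' := fun hx => J₁.neg_mem hx }
    haveI : Nontrivial R := nontrivialR (R := R) p
    have hF : IsField S :=
      { exists_pair_ne := ⟨0, 1, by
          intro h
          have := congrArg Subtype.val h
          simp at this⟩
        mul_comm := fun x y => Subtype.ext (hc₁ _ x.2 _ y.2)
        mul_inv_cancel := by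
          intro x hx
          obtain ⟨y, hy, h1, h2⟩ := hJ₁.inv x x.2 (fun h => hx (Subtype.ext h))
          exact ⟨⟨y, hy⟩, Subtype.ext h1⟩ }
    letI : Field S := hF.toField
    haveI : CharP S p := CharP.subring R p S
    letI : Algebra (ZMod p) S := ZMod.algebra S p
    letI : Fintype S := Fintype.ofFinite S
    letI : Fintype (S ≃ₐ[ZMod p] S) := Fintype.ofFinite _
    have hSet : Setup p S.subtype J :=
      { isJ := hJ
        iota_mem := fun c => c.2.1
        self := by
          intro z hz hE
          have h1 : z * a = a * z := hE ⟨a, ha, rfl⟩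
          exact ⟨⟨z, hz, h1⟩, rfl⟩ }
    obtain ⟨c, hc'⟩ := main_field hSet hb
    have h2 : b * a = a * b := by
      rw [← hc']
      exact c.2.2
    exact hab h2.symm

/-- Products stay in `J`. -/
theorem mul_mem_of_isJ (p : ℕ) [hp : Fact p.Prime] [CharP R p] {J : AddSubgroup R} (hJ : IsJ J)
    {x y : R} (hx : x ∈ J) (hy : y ∈ J) : x * y ∈ J :=
  hJ.mul_mem_of_commute p hx hy (comm_of_isJ p J hJ x hx y hy)

omit [Finite R] in
/-- Inverse closure from a second additive subgroup. -/
theorem isJ_of_inv_pair {J K : AddSubgroup R} (h1J : (1 : R) ∈ J) (h1K : (1 : R) ∈ K)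
    (hJK : ∀ x ∈ J, x ≠ 0 → ∃ y ∈ K, x * y = 1 ∧ y * x = 1)
    (hKJ : ∀ y ∈ K, y ≠ 0 → ∃ x ∈ J, x * y = 1 ∧ y * x = 1) : IsJ J := by
  refine ⟨h1J, ?_⟩
  intro x hx h0
  by_cases hm : x = -1
  · refine ⟨-1, J.neg_mem h1J, ?_, ?_⟩ <;> simp [hm]
  have ha : x + 1 ∈ J := J.add_mem hx h1J
  have ha0 : x + 1 ≠ 0 := by
    intro h
    exact hm (eq_neg_of_add_eq_zero_left h)
  obtain ⟨y, hy, h2, h3⟩ := hJK _ ha ha0
  have hy1 : 1 - y ∈ K := K.sub_mem h1K hy
  have hy0 : 1 - y ≠ 0 := by
    intro h
    have h4 : y = 1 := (sub_eq_zero.mp h).symm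
    rw [h4, mul_one] at h2
    apply h0
    have : x + 1 = 0 + 1 := by rw [h2, zero_add]
    exact add_right_cancel this
  obtain ⟨c, hc, h4, h5⟩ := hKJ _ hy1 hy0
  have e1 : 1 - y = y * x := by
    have : y * (x + 1) = 1 := h3
    rw [mul_add, mul_one] at this
    rw [← this]
    abel
  have e2 : 1 - y = x * y := by
    have : (x + 1) * y = 1 := h2
    rw [add_mul, one_mul] at this
    rw [← this]
    abel
  refine ⟨c - 1, J.sub_mem hc h1J, ?_, ?_⟩
  · -- x * (c - 1) = 1
    have h6 : x * c = x + 1 := by
      calc x * c = (x + 1) * y * x * c := by rw [h2, one_mul]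
        _ = (x + 1) * ((y * x) * c) := by simp only [mul_assoc]
        _ = x + 1 := by rw [← e1, h5, mul_one]
    rw [mul_sub, h6, mul_one]
    abel
  · have h6 : c * x = x + 1 := by
      calc c * x = c * x * (y * (x + 1)) := by rw [h3, mul_one]
        _ = (c * (x * y)) * (x + 1) := by simp only [mul_assoc]
        _ = x + 1 := by rw [← e2, h4, one_mul]
    rw [sub_mul, h6, one_mul]
    abel

end Top

end Cfsg.Agent.Lib.JF
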