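import Mathlib
import Cfsg.Agent.Lib.BestOffT
import Cfsg.Agent.Lib.CentralSylow

set_option autoImplicit false
set_option linter.unusedSectionVars false
set_option linter.unusedVariables false

open Cfsg

namespace Cfsg.Agent.Lib.JFM

open Cfsg.Agent.Lib.FFMod Cfsg.Agent.Lib.PCore

section Basics

variable {p : ℕ} [hp : Fact p.Prime] {Γ : Type*} [Group Γ] {E : Type*} [AddCommGroup E]
  [Module (ZMod p) E] (ρ : Γ →* Module.End (ZMod p) E)

theorem rr (g : Γ) (v : E) : ρ g⁻¹ (ρ g v) = v := by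
  rw [← Module.End.mul_apply, ← map_mul, inv_mul_cancel, map_one]; rfl

theorem rr' (g : Γ) (v : E) : ρ g (ρ g⁻¹ v) = v := by
  rw [← Module.End.mul_apply, ← map_mul, mul_inv_cancel, map_one]; rfl

theorem rmul (g h : Γ) (v : E) : ρ (g * h) v = ρ g (ρ h v) := by
  rw [map_mul, Module.End.mul_apply]

theorem mem_map_rho {S : Submodule (ZMod p) E} {g : Γ} {v : E} :
    v ∈ S.map (ρ g) ↔ ρ g⁻¹ v ∈ S := by
  constructor
  · rintro ⟨w, hw, rfl⟩
    rw [rr]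
    exact hw
  · intro h
    exact ⟨_, h, rr' ρ g v⟩

theorem map_rho_mul (S : Submodule (ZMod p) E) (g h : Γ) :
    S.map (ρ (g * h)) = (S.map (ρ h)).map (ρ g) := by
  ext v
  rw [mem_map_rho, mem_map_rho, mem_map_rho, mul_inv_rev, rmul]

theorem map_rho_one (S : Submodule (ZMod p) E) : S.map (ρ 1) = S := by
  ext v
  rw [mem_map_rho, inv_one, map_one]
  rfl

theorem map_rho_inf (S S' : Submodule (ZMod p) E) (g : Γ) :
    (S ⊓ S').map (ρ g) = S.map (ρ g) ⊓ S'.map (ρ g) := by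
  ext v
  simp only [Submodule.mem_inf, mem_map_rho]

theorem map_rho_mono {S S' : Submodule (ZMod p) E} (h : S ≤ S') (g : Γ) :
    S.map (ρ g) ≤ S'.map (ρ g) := Submodule.map_mono h

/-- Fixed points of a conjugate. -/
theorem fix_conj (B : Subgroup Γ) (g : Γ) :
    fixS ρ (B.map (MulAut.conj g).toMonoidHom) = (fixS ρ B).map (ρ g) := by
  ext v
  rw [mem_map_rho]
  constructor
  · intro h b hb
    have h1 := h (g * b * g⁻¹) ⟨b, hb, rfl⟩
    rw [rmul, rmul] at h1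
    calc ρ b (ρ g⁻¹ v) = ρ g⁻¹ (ρ g (ρ b (ρ g⁻¹ v))) := (rr ρ g _).symm
      _ = ρ g⁻¹ v := by rw [h1]
  · rintro h _ ⟨b, hb, rfl⟩
    show ρ (g * b * g⁻¹) v = v
    rw [rmul, rmul, h b hb, rr']

theorem fix_top_apply (g : Γ) {v : E} (hv : v ∈ fixS ρ (⊤ : Subgroup Γ)) : ρ g v = v :=
  hv g trivial

/-- The stabilizer of a submodule. -/
def stabS (S : Submodule (ZMod p) E) : Subgroup Γ where
  carrier := {g | S.map (ρ g) = S}
  mul_mem' := by
    intro a b ha hb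
    show S.map (ρ (a * b)) = S
    rw [map_rho_mul, hb, ha]
  one_mem' := map_rho_one ρ S
  inv_mem' := by
    intro a ha
    show S.map (ρ a⁻¹) = S
    have ha' : S.map (ρ a) = S := ha
    conv_lhs => rw [← ha']
    rw [← map_rho_mul, inv_mul_cancel, map_rho_one]

theorem mem_stabS {S : Submodule (ZMod p) E} {g : Γ} : g ∈ stabS ρ S ↔ S.map (ρ g) = S := Iff.rfl

theorem mem_of_mem_stabS {S : Submodule (ZMod p) E} {g : Γ} (hg : g ∈ stabS ρ S) {v : E} (hv : v ∈ S) :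
    ρ g v ∈ S := by
  have : S.map (ρ g) = S := hg
  rw [← this]
  exact ⟨v, hv, rfl⟩

variable [Finite E]

instance instModFin (S : Submodule (ZMod p) E) : Module.Finite (ZMod p) S :=
  Module.Finite.of_finite

instance instModFinE : Module.Finite (ZMod p) E :=
  Module.Finite.of_finite

theorem finrank_map_rho (S : Submodule (ZMod p) E) (g : Γ) :
    Module.finrank (ZMod p) (S.map (ρ g)) = Module.finrank (ZMod p) S := by
  have h : Nat.card (S.map (ρ g)) = Nat.card S := by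
    refine Nat.card_congr ⟨fun v => ⟨ρ g⁻¹ v, (mem_map_rho ρ).mp v.2⟩,
      fun v => ⟨ρ g v, ⟨v, v.2, rfl⟩⟩, fun v => Subtype.ext (rr' ρ g v), fun v => Subtype.ext (rr ρ g v)⟩
  rw [card_eq_pow, card_eq_pow] at h
  exact Nat.pow_right_injective (Fact.out : p.Prime).two_le h

theorem mem_stabS_of_forall {S : Submodule (ZMod p) E} {g : Γ} (h : ∀ v ∈ S, ρ g v ∈ S) : g ∈ stabS ρ S := by
  apply Submodule.eq_of_le_of_finrank_le
  · rintro _ ⟨v, hv, rfl⟩
    exact h v hv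
  · rw [finrank_map_rho]

end Basics

section Setup

variable {p : ℕ} [hp : Fact p.Prime] {Γ : Type*} [Group Γ] [Finite Γ] {E : Type*} [AddCommGroup E]
  [Module (ZMod p) E] [Finite E]

/-- The hypotheses of the theorem, on a module. -/
structure Setup (ρ : Γ →* Module.End (ZMod p) E) (T : Sylow p Γ) (M A : Subgroup Γ) : Prop where
  inj : Function.Injective ρ
  nn : ¬ (T : Subgroup Γ).Normal
  uniq : ∀ M', IsCoatom M' → (T : Subgroup Γ) ≤ M' → M' = M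
  hM : IsCoatom M
  hTM : (T : Subgroup Γ) ≤ M
  hAT : A ≤ T
  comm : ∀ a ∈ A, ∀ b ∈ A, a * b = b * a
  pow : ∀ a ∈ A, a ^ p = 1
  H1 : Nat.card E ≤ fF ρ A
  H2 : ∀ A₀ ≤ A, A₀ ≠ ⊥ → A₀ ≠ A → fF ρ A₀ < fF ρ A
  H3 : ∃ d, d ∈ fixS ρ (T : Subgroup Γ) ∧ d ∉ fixS ρ (⊤ : Subgroup Γ)
  H4 : ∀ x, x ∉ M → A ⊔ A.map (MulAut.conj x).toMonoidHom = ⊤

namespace Setup

variable {ρ : Γ →* Module.End (ZMod p) E} {T : Sylow p Γ} {M A : Subgroup Γ} (S : Setup ρ T M A)

include S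

theorem isBO : IsBO (p := p) ρ A := by
  refine ⟨fun B hB => ?_, S.comm, S.pow⟩
  by_cases hB0 : B = ⊥
  · subst hB0
    rw [fF_bot]
    exact S.H1
  by_cases hBA : B = A
  · rw [hBA]
  exact (S.H2 B hB hB0 hBA).le

theorem exists_not_mem : ∃ x, x ∉ M := by
  by_contra h
  push Not at h
  exact S.hM.1 (eq_top_iff.mpr fun x _ => h x)

theorem A_ne_bot : A ≠ ⊥ := by
  intro h
  obtain ⟨x, hx⟩ := S.exists_not_mem
  have h1 := S.H4 x hx
  rw [h, Subgroup.map_bot, sup_idem] at h1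
  have h2 : x ∈ (⊥ : Subgroup Γ) := by
    rw [h1]
    trivial
  rw [Subgroup.mem_bot] at h2
  rw [h2] at hx
  exact hx M.one_mem

theorem exists_ne_one : ∃ a ∈ A, a ≠ 1 := by
  obtain ⟨a, h⟩ := Subgroup.ne_bot_iff_exists_ne_one.mp S.A_ne_bot
  exact ⟨a, a.2, fun h' => h (Subtype.ext h')⟩

theorem quad_mul (a : Γ) (ha : a ∈ A) (q : Γ) (hq : q ∈ A) : (ρ a - 1) * (ρ q - 1) = 0 := by
  obtain ⟨a₁, ha₁, ha₁1⟩ := S.exists_ne_one
  have hne : ∃ a ∈ A, ρ a ≠ 1 := ⟨a₁, ha₁, fun h => ha₁1 (S.inj (by rw [h, map_one]))⟩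
  obtain ⟨Q, hQ, hfQ, ⟨q₁, hq₁, hq₁1⟩, hcomm⟩ := Cfsg.Agent.Lib.BestOffT.timmesfeld S.isBO hne
  have hQA : Q = A := by
    by_contra hne
    have hQ0 : Q ≠ ⊥ := by
      rintro rfl
      rw [Subgroup.mem_bot.mp hq₁, map_one] at hq₁1
      exact hq₁1 rfl
    exact (S.H2 Q hQ hQ0 hne).ne hfQ
  subst hQA
  exact (hcomm q hq a ha).1

theorem quad {a : Γ} (ha : a ∈ A) (v : E) : ρ a v - v ∈ fixS ρ A := by
  intro q hq
  have h1 := S.quad_mul q hq a ha
  have h2 := congrArg (fun z : Module.End (ZMod p) E => z v) h1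
  simp only [Module.End.mul_apply, LinearMap.sub_apply, Module.End.one_apply, LinearMap.zero_apply] at h2
  exact sub_eq_zero.mp h2

theorem le_M {H : Subgroup Γ} (hH : (T : Subgroup Γ) ≤ H) (hne : H ≠ ⊤) : H ≤ M := by
  obtain ⟨M', hM', hle⟩ := (eq_top_or_exists_le_coatom H).resolve_left hne
  rwa [S.uniq M' hM' (hH.trans hle)] at hle

theorem A_le_M : A ≤ M := S.hAT.trans S.hTM

theorem inter {x : Γ} (hx : x ∉ M) :
    fixS ρ A ⊓ (fixS ρ A).map (ρ x) = fixS ρ (⊤ : Subgroup Γ) := by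
  rw [← fix_conj, ← fixS_sup, S.H4 x hx]

theorem C_le_U : fixS ρ (⊤ : Subgroup Γ) ≤ fixS ρ A := fixS_anti ρ le_top

theorem C_le_map (g : Γ) : fixS ρ (⊤ : Subgroup Γ) ≤ (fixS ρ A).map (ρ g) := by
  intro c hc
  rw [mem_map_rho]
  have : ρ g⁻¹ c = c := hc _ trivial
  rw [this]
  exact S.C_le_U hc

theorem sup_stab {x : Γ} (hx : x ∉ M) (g : Γ) :
    g ∈ stabS ρ (fixS ρ A ⊔ (fixS ρ A).map (ρ x)) := by
  have h1 : A ⊔ A.map (MulAut.conj x).toMonoidHom ≤ stabS ρ (fixS ρ A ⊔ (fixS ρ A).map (ρ x)) := by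
    apply sup_le
    · intro a ha
      apply mem_stabS_of_forall
      intro v hv
      have : ρ a v = v + (ρ a v - v) := by abel
      rw [this]
      exact Submodule.add_mem _ hv (Submodule.mem_sup_left (S.quad ha v))
    · rintro _ ⟨a, ha, rfl⟩
      apply mem_stabS_of_forall
      intro v hv
      show ρ (x * a * x⁻¹) v ∈ _
      have : ρ (x * a * x⁻¹) v = v + (ρ (x * a * x⁻¹) v - v) := by abel
      rw [this]
      refine Submodule.add_mem _ hv (Submodule.mem_sup_right ?_)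
      rw [mem_map_rho, map_sub, rmul, rmul, rr]
      exact S.quad ha _
  rw [S.H4 x hx] at h1
  exact h1 trivial

theorem sup_le_sup {x y : Γ} (hx : x ∉ M) :
    fixS ρ A ⊔ (fixS ρ A).map (ρ y) ≤ fixS ρ A ⊔ (fixS ρ A).map (ρ x) := by
  apply sup_le le_sup_left
  rintro _ ⟨w, hw, rfl⟩
  exact mem_of_mem_stabS ρ (S.sup_stab hx y) (Submodule.mem_sup_left hw)

theorem sup_eq {x y : Γ} (hx : x ∉ M) (hy : y ∉ M) :
    fixS ρ A ⊔ (fixS ρ A).map (ρ y) = fixS ρ A ⊔ (fixS ρ A).map (ρ x) :=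
  le_antisymm (S.sup_le_sup hx) (S.sup_le_sup hy)

theorem two_dim {x : Γ} (hx : x ∉ M) :
    2 * Module.finrank (ZMod p) (fixS ρ A) =
      Module.finrank (ZMod p) ↥(fixS ρ A ⊔ (fixS ρ A).map (ρ x)) +
        Module.finrank (ZMod p) (fixS ρ (⊤ : Subgroup Γ)) := by
  have h := Submodule.finrank_sup_add_finrank_inf_eq (fixS ρ A) ((fixS ρ A).map (ρ x))
  rw [S.inter hx, finrank_map_rho] at h
  omega

/-- The key fact. -/
theorem key {a : Γ} (ha : a ∈ A) {x₀ : Γ} (hx₀ : x₀ ∉ M) {v : E}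
    (hv : v ∈ fixS ρ A ⊔ (fixS ρ A).map (ρ x₀)) (hvU : v ∉ fixS ρ A)
    (hc : ρ a v - v ∈ fixS ρ (⊤ : Subgroup Γ)) (g : Γ) : g⁻¹ * a * g ∈ M := by
  by_contra hg
  have hgM : g ∉ M := fun h => hg (M.mul_mem (M.mul_mem (M.inv_mem h) (S.A_le_M ha)) h)
  rw [← S.sup_eq hx₀ hgM] at hv
  obtain ⟨u₁, hu₁, w, hw, rfl⟩ := Submodule.mem_sup.mp hv
  have h1 : ρ a w - w ∈ fixS ρ (⊤ : Subgroup Γ) := by
    have : ρ a (u₁ + w) - (u₁ + w) = ρ a w - w := by
      rw [map_add, hu₁ a ha]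
      abel
    rwa [this] at hc
  have h2 : ρ a w ∈ (fixS ρ A).map (ρ g) := by
    have : ρ a w = w + (ρ a w - w) := by abel
    rw [this]
    exact Submodule.add_mem _ hw (S.C_le_map g h1)
  have h4 : ρ g⁻¹ (ρ a w) ∈ fixS ρ A ⊓ (fixS ρ A).map (ρ (g⁻¹ * a * g)) := by
    refine ⟨(mem_map_rho ρ).mp h2, ?_⟩
    show _ ∈ Submodule.map _ _
    rw [mem_map_rho]
    have e : (g⁻¹ * a * g)⁻¹ = g⁻¹ * a⁻¹ * g := by group
    rw [e, rmul, rmul, rr', rr]
    exact (mem_map_rho ρ).mp hw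
  rw [S.inter hg] at h4
  have h5 : ρ a w ∈ fixS ρ (⊤ : Subgroup Γ) := by
    have h40 : ρ g (ρ g⁻¹ (ρ a w)) = ρ g⁻¹ (ρ a w) := h4 g trivial
    rw [rr'] at h40
    rw [h40]
    exact h4
  have h6 : w ∈ fixS ρ (⊤ : Subgroup Γ) := by
    have e : w = ρ a w - (ρ a w - w) := by abel
    rw [e]
    exact Submodule.sub_mem _ h5 h1
  exact hvU (Submodule.add_mem _ hu₁ (S.C_le_U h6))

/-- Elements in the normal core of `M` of `T` lie in the `p`-core: the Frattini argument. -/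
theorem mem_pCore_of_core {a : Γ} (ha : a ∈ A) (hcore : ∀ g, g⁻¹ * a * g ∈ M) : a ∈ pCore p Γ := by
  classical
  let N : Subgroup Γ := M.normalCore
  haveI : N.Normal := Subgroup.normalCore_normal M
  have haN : a ∈ N := by
    intro b
    have := hcore b⁻¹
    simpa using this
  obtain ⟨P, hP⟩ := Cfsg.Agent.Lib.CentralSylow.exists_sylow_subgroupOf T N
  have hPm : (P : Subgroup N).map N.subtype = (T : Subgroup Γ) ⊓ N := by
    rw [hP, Subgroup.subgroupOf_map_subtype]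
  have hfr := Sylow.normalizer_sup_eq_top (p := p) P
  have hfr' : Subgroup.normalizer (((T : Subgroup Γ) ⊓ N : Subgroup Γ) : Set Γ) ⊔ N = ⊤ := by
    rw [← hPm]
    exact hfr
  have hTn : (T : Subgroup Γ) ≤ Subgroup.normalizer (((T : Subgroup Γ) ⊓ N : Subgroup Γ) : Set Γ) := by
    intro t ht
    rw [Subgroup.mem_normalizer_iff]
    intro y
    constructor
    · rintro ⟨h1, h2⟩
      exact ⟨T.1.mul_mem (T.1.mul_mem ht h1) (T.1.inv_mem ht), Subgroup.Normal.conj_mem inferInstance y h2 t⟩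
    · rintro ⟨h1, h2⟩
      have e : y = t⁻¹ * (t * y * t⁻¹) * t := by group
      rw [e]
      refine ⟨T.1.mul_mem (T.1.mul_mem (T.1.inv_mem ht) h1) ht, ?_⟩
      have := Subgroup.Normal.conj_mem (inferInstance : N.Normal) _ h2 t⁻¹
      simpa using this
  have hNM : N ≤ M := Subgroup.normalCore_le M
  have htop : Subgroup.normalizer (((T : Subgroup Γ) ⊓ N : Subgroup Γ) : Set Γ) = ⊤ := by
    by_contra hne
    have h1 := S.le_M hTn hne
    have h2 := sup_le h1 hNM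
    rw [hfr'] at h2
    exact S.hM.1 (top_le_iff.mp h2)
  have hnorm : ((T : Subgroup Γ) ⊓ N).Normal := Subgroup.normalizer_eq_top_iff.mp htop
  have hpg : IsPGroup p ((T : Subgroup Γ) ⊓ N : Subgroup Γ) :=
    T.isPGroup'.to_le inf_le_left
  exact le_pCore hnorm hpg ⟨S.hAT ha, haN⟩

end Setup

end Setup

end Cfsg.Agent.Lib.JFM
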