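import Mathlib
import Cfsg.Agent.Lib.JFMa

set_option autoImplicit false
set_option linter.unusedSectionVars false
set_option linter.unusedVariables false

open Cfsg

namespace Cfsg.Agent.Lib.JFM

open Cfsg.Agent.Lib.FFMod Cfsg.Agent.Lib.PCore

section Setup2

variable {p : ℕ} [hp : Fact p.Prime] {Γ : Type*} [Group Γ] [Finite Γ] {E : Type*} [AddCommGroup E]
  [Module (ZMod p) E] [Finite E]

theorem card_E_eq_pow (p : ℕ) [hp : Fact p.Prime] (E : Type*) [AddCommGroup E] [Module (ZMod p) E] [Finite E] :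
    Nat.card E = p ^ Module.finrank (ZMod p) E := by
  rw [Module.natCard_eq_pow_finrank (K := ZMod p), Nat.card_zmod]

namespace Setup

variable {ρ : Γ →* Module.End (ZMod p) E} {T : Sylow p Γ} {M A : Subgroup Γ} (S : Setup ρ T M A)

include S

/-- The linear part of the action of `A` on a vector, as a homomorphism. -/
theorem exists_phi (w : E) (Y : Submodule (ZMod p) E) (hCY : fixS ρ (⊤ : Subgroup Γ) ≤ Y)
    (hY : ∀ a ∈ A, ρ a w - w ∈ Y) :
    ∃ φ : (A × Multiplicative (fixS ρ (⊤ : Subgroup Γ))) →* Multiplicative Y,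
      ∀ (a : A) (c : fixS ρ (⊤ : Subgroup Γ)),
        (((φ (a, Multiplicative.ofAdd c)).toAdd : Y) : E) = ρ a w - w + c := by
  refine ⟨MonoidHom.mk' (fun x => Multiplicative.ofAdd
    ⟨ρ x.1 w - w + (x.2.toAdd : E), Y.add_mem (hY _ x.1.2) (hCY x.2.toAdd.2)⟩) ?_, fun a c => rfl⟩
  intro x x'
  apply Multiplicative.toAdd.injective
  apply Subtype.ext
  show ρ ((x.1 * x'.1 : A) : Γ) w - w + (((x.2 * x'.2).toAdd : fixS ρ (⊤ : Subgroup Γ)) : E) =
    (ρ x.1 w - w + (x.2.toAdd : E)) + (ρ x'.1 w - w + (x'.2.toAdd : E))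
  have h1 : ρ x.1 (ρ x'.1 w - w) = ρ x'.1 w - w := S.quad x'.1.2 w x.1 x.1.2
  rw [map_sub] at h1
  have h2 : (((x.2 * x'.2).toAdd : fixS ρ (⊤ : Subgroup Γ)) : E) = (x.2.toAdd : E) + (x'.2.toAdd : E) := rfl
  have h3 : ρ ((x.1 * x'.1 : A) : Γ) w = ρ x.1 (ρ x'.1 w) := by
    rw [Subgroup.coe_mul, rmul]
  rw [h2, h3]
  rw [sub_eq_iff_eq_add] at h1
  rw [h1]
  abel

theorem card_bound (w : E) (Y : Submodule (ZMod p) E) (hCY : fixS ρ (⊤ : Subgroup Γ) ≤ Y)
    (hY : ∀ a ∈ A, ρ a w - w ∈ Y) (A' : Subgroup Γ)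
    (hker : ∀ a ∈ A, ρ a w - w ∈ fixS ρ (⊤ : Subgroup Γ) → a ∈ A') :
    Nat.card A * Nat.card (fixS ρ (⊤ : Subgroup Γ)) ≤ Nat.card A' * Nat.card Y := by
  obtain ⟨φ, hφ⟩ := S.exists_phi w Y hCY hY
  have h1 : Nat.card (A × Multiplicative (fixS ρ (⊤ : Subgroup Γ))) =
      Nat.card A * Nat.card (fixS ρ (⊤ : Subgroup Γ)) := by
    rw [Nat.card_prod]
    congr 1
  have h2 := φ.ker.card_mul_index
  rw [Subgroup.index_ker, h1] at h2
  rw [← h2]
  apply Nat.mul_le_mul
  · -- the kernel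
    have hinj : ∀ x : φ.ker, ((x : A × Multiplicative (fixS ρ (⊤ : Subgroup Γ))).1 : Γ) ∈ A' := by
      rintro ⟨⟨a, c⟩, hx⟩
      apply hker _ a.2
      have h3 := hφ a c.toAdd
      have h4 : φ (a, c) = 1 := hx
      have h5 : (((φ (a, Multiplicative.ofAdd c.toAdd)).toAdd : Y) : E) = 0 := by
        show (((φ (a, c)).toAdd : Y) : E) = 0
        rw [h4]
        rfl
      rw [h5] at h3
      have h6 : ρ a w - w = -(c.toAdd : E) := by
        rw [eq_neg_iff_add_eq_zero]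
        exact h3.symm
      rw [h6]
      exact Submodule.neg_mem _ c.toAdd.2
    refine Nat.card_le_card_of_injective (fun x => (⟨_, hinj x⟩ : A')) ?_
    rintro ⟨⟨a, c⟩, hx⟩ ⟨⟨a', c'⟩, hx'⟩ h
    have h7 : (a : Γ) = a' := congrArg (fun z : A' => (z : Γ)) h
    have h8 : a = a' := Subtype.ext h7
    subst h8
    have e3 := hφ a c.toAdd
    have e4 := hφ a c'.toAdd
    have e5 : (((φ (a, Multiplicative.ofAdd c.toAdd)).toAdd : Y) : E) = 0 := by
      show (((φ (a, c)).toAdd : Y) : E) = 0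
      rw [show φ (a, c) = 1 from hx]
      rfl
    have e6 : (((φ (a, Multiplicative.ofAdd c'.toAdd)).toAdd : Y) : E) = 0 := by
      show (((φ (a, c')).toAdd : Y) : E) = 0
      rw [show φ (a, c') = 1 from hx']
      rfl
    rw [e5] at e3
    rw [e6] at e4
    have e7 : (c.toAdd : E) = (c'.toAdd : E) := add_left_cancel (e3.symm.trans e4)
    have e8 : c = c' := Multiplicative.toAdd.injective (Subtype.ext e7)
    subst e8
    rfl
  · exact (Subgroup.card_le_card_group φ.range).trans (le_of_eq (Nat.card_congr Multiplicative.toAdd))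

/-- The dimension chain. -/
theorem chain {x₀ : Γ} (hx₀ : x₀ ∉ M) {e : ℕ} (he : Nat.card A = p ^ e) :
    A ⊓ pCore p Γ = ⊥ ∧ pCore p Γ = ⊥ ∧ fixS ρ A ⊔ (fixS ρ A).map (ρ x₀) = ⊤ ∧
      Module.finrank (ZMod p) (fixS ρ A) = e + Module.finrank (ZMod p) (fixS ρ (⊤ : Subgroup Γ)) ∧
      Module.finrank (ZMod p) E = e + Module.finrank (ZMod p) (fixS ρ A) := by
  classical
  have hpp : p.Prime := Fact.out
  have h2le : 2 ≤ p := hpp.two_le
  obtain ⟨d, hdT, hdC⟩ := S.H3
  have hdU : d ∈ fixS ρ A := fixS_anti ρ S.hAT hdT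
  set U := fixS ρ A with hU
  set C := fixS ρ (⊤ : Subgroup Γ) with hC
  let V₃ : Submodule (ZMod p) E := Submodule.span (ZMod p) (Set.range fun g : Γ => ρ g d)
  let Z : Submodule (ZMod p) E := V₃ ⊔ C
  have hV₃inv : ∀ g, ∀ v ∈ V₃, ρ g v ∈ V₃ := by
    intro g v hv
    have h1 : V₃.map (ρ g) ≤ V₃ := by
      rw [Submodule.map_span_le]
      rintro _ ⟨h, rfl⟩
      apply Submodule.subset_span
      exact ⟨g * h, rmul ρ g h d⟩
    exact h1 ⟨v, hv, rfl⟩
  have hZinv : ∀ g, ∀ v ∈ Z, ρ g v ∈ Z := by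
    intro g v hv
    obtain ⟨a, ha, c, hc, rfl⟩ := Submodule.mem_sup.mp hv
    rw [map_add, hc g trivial]
    exact Submodule.add_mem _ (Submodule.mem_sup_left (hV₃inv g a ha)) (Submodule.mem_sup_right hc)
  have hZfix : Z ≤ fixS ρ (pCore p Γ) := by
    apply sup_le
    · rw [Submodule.span_le]
      rintro _ ⟨g, rfl⟩ b hb
      have h1 : g⁻¹ * b * g ∈ pCore p Γ := by
        have := (pCore_normal (G := Γ) p).conj_mem b hb g⁻¹
        simpa using this
      have h2 : g⁻¹ * b * g ∈ (T : Subgroup Γ) := pCore_le_sylow p T h1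
      have h3 : ρ (g⁻¹ * b * g) d = d := hdT _ h2
      show ρ b (ρ g d) = ρ g d
      calc ρ b (ρ g d) = ρ g (ρ (g⁻¹ * b * g) d) := by
            rw [← rmul, ← rmul]
            congr 2
            group
        _ = ρ g d := by rw [h3]
    · exact fixS_anti ρ le_top
  let y : E := ρ x₀ d
  have hyZ : y ∈ Z := Submodule.mem_sup_left (Submodule.subset_span ⟨x₀, rfl⟩)
  have hyU : y ∉ U := by
    intro h
    have h1 : y ∈ U ⊓ U.map (ρ x₀) := ⟨h, ⟨d, hdU, rfl⟩⟩
    rw [S.inter hx₀] at h1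
    apply hdC
    have h2 : ρ x₀⁻¹ y = y := h1 _ trivial
    rw [show ρ x₀⁻¹ y = d from rr ρ x₀ d] at h2
    rw [h2]
    exact h1
  have hyV₀ : y ∈ U ⊔ U.map (ρ x₀) := Submodule.mem_sup_right ⟨d, hdU, rfl⟩
  let Y : Submodule (ZMod p) E := Z ⊓ U
  have hCU : C ≤ U := S.C_le_U
  have hCY : C ≤ Y := le_inf le_sup_right hCU
  have hY : ∀ a ∈ A, ρ a y - y ∈ Y := fun a ha => ⟨Z.sub_mem (hZinv a y hyZ) hyZ, S.quad ha y⟩
  let A₈ : Subgroup Γ := A ⊓ pCore p Γ
  have hker : ∀ a ∈ A, ρ a y - y ∈ C → a ∈ A₈ := by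
    intro a ha hc
    exact ⟨ha, S.mem_pCore_of_core ha (S.key ha hx₀ hyV₀ hyU hc)⟩
  have hbound := S.card_bound y Y hCY hY A₈ hker
  have hA₈p : IsPGroup p A₈ := S.isBO.isPGroup.to_le inf_le_left
  obtain ⟨e₈, he₈⟩ := IsPGroup.iff_card.mp hA₈p
  -- dimensions
  set u := Module.finrank (ZMod p) U with hu
  set c := Module.finrank (ZMod p) C with hc
  set n := Module.finrank (ZMod p) E with hn
  have hb2 : e + c ≤ e₈ + Module.finrank (ZMod p) Y := by
    rw [he, he₈, card_eq_pow C, card_eq_pow Y, ← pow_add, ← pow_add] at hbound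
    exact (Nat.pow_le_pow_iff_right hpp.one_lt).mp hbound
  have hb1 : n ≤ e + u := by
    have h1 := S.H1
    unfold fF at h1
    rw [card_E_eq_pow p E, he, card_eq_pow (fixS ρ A), ← pow_add] at h1
    exact (Nat.pow_le_pow_iff_right hpp.one_lt).mp h1
  have hdY : Module.finrank (ZMod p) Y + u ≤ Module.finrank (ZMod p) ↥(Z ⊔ U) + c := by
    have h_a : Module.finrank (ZMod p) ↥(Z ⊔ U) + Module.finrank (ZMod p) Y =
        Module.finrank (ZMod p) Z + Module.finrank (ZMod p) U :=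
      Submodule.finrank_sup_add_finrank_inf_eq Z U
    have hb := Submodule.finrank_sup_add_finrank_inf_eq Y (Y.map (ρ x₀))
    rw [finrank_map_rho] at hb
    have h1 : Y ⊔ Y.map (ρ x₀) ≤ Z := by
      apply sup_le inf_le_left
      rintro _ ⟨v, hv, rfl⟩
      exact hZinv x₀ v hv.1
    have h2 : Y ⊓ Y.map (ρ x₀) ≤ C := by
      exact (le_inf (inf_le_left.trans inf_le_right)
        (inf_le_right.trans (Submodule.map_mono inf_le_right))).trans (S.inter hx₀).le
    have h3 := Submodule.finrank_mono h1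
    have h4 := Submodule.finrank_mono h2
    omega
  have hA₈A : A₈ ≠ A := by
    intro h
    have h1 : A ≤ pCore p Γ := by
      rw [← h]
      exact inf_le_right
    have h2 : A.map (MulAut.conj x₀).toMonoidHom ≤ pCore p Γ := by
      rintro _ ⟨a, ha, rfl⟩
      exact (pCore_normal (G := Γ) p).conj_mem a (h1 ha) x₀
    have h3 : (⊤ : Subgroup Γ) ≤ pCore p Γ := by
      rw [← S.H4 x₀ hx₀]
      exact sup_le h1 h2
    have h4 : (T : Subgroup Γ) = ⊤ := top_le_iff.mp (h3.trans (pCore_le_sylow p T))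
    apply S.nn
    rw [h4]
    infer_instance
  have hA₈bot : A₈ = ⊥ := by
    by_contra hne
    have h1 := S.H2 A₈ inf_le_left hne hA₈A
    unfold fF at h1
    rw [he, he₈, card_eq_pow (fixS ρ A₈), card_eq_pow (fixS ρ A), ← pow_add, ← pow_add] at h1
    have h2 : e₈ + Module.finrank (ZMod p) (fixS ρ A₈) < e + u := (Nat.pow_lt_pow_iff_right hpp.one_lt).mp h1
    have h3 : Z ⊔ U ≤ fixS ρ A₈ :=
      sup_le (hZfix.trans (fixS_anti ρ inf_le_right)) (fixS_anti ρ inf_le_left)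
    have h4 := Submodule.finrank_mono h3
    omega
  have he₈0 : e₈ = 0 := by
    rw [hA₈bot, Nat.card_eq_one_iff_unique.mpr ⟨inferInstance, inferInstance⟩] at he₈
    have := (Nat.pow_eq_one.mp he₈.symm)
    rcases this with h | h
    · exact absurd h hpp.one_lt.ne'
    · exact h
  have hYU : Module.finrank (ZMod p) Y ≤ u := Submodule.finrank_mono inf_le_right
  have hZUn : Module.finrank (ZMod p) ↥(Z ⊔ U) ≤ n := Submodule.finrank_le _
  have hV₀n : Module.finrank (ZMod p) ↥(U ⊔ U.map (ρ x₀)) ≤ n := Submodule.finrank_le _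
  have h2d : 2 * u = Module.finrank (ZMod p) ↥(U ⊔ U.map (ρ x₀)) + c := S.two_dim hx₀
  have hue : u = e + c := by omega
  have hne : n = e + u := by omega
  have hV₀ : U ⊔ U.map (ρ x₀) = ⊤ := by
    apply Submodule.eq_top_of_finrank_eq
    omega
  have hYeq : Y = U := by
    apply Submodule.eq_of_le_of_finrank_le inf_le_right
    have h5 : u ≤ Module.finrank (ZMod p) Y := by omega
    exact h5
  have hUZ : U ≤ Z := by
    rw [← hYeq]
    exact inf_le_left
  have hZtop : Z = ⊤ := by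
    have h1 : Z ⊔ U = ⊤ := by
      apply Submodule.eq_top_of_finrank_eq
      omega
    rwa [sup_of_le_left hUZ] at h1
  have hcore : pCore p Γ = ⊥ := by
    rw [eq_bot_iff]
    intro b hb
    rw [Subgroup.mem_bot]
    apply S.inj
    rw [map_one]
    apply LinearMap.ext
    intro v
    have : v ∈ Z := by
      rw [hZtop]
      trivial
    exact hZfix this b hb
  exact ⟨hA₈bot, hcore, hV₀, hue, hne⟩

end Setup

end Setup2

end Cfsg.Agent.Lib.JFM
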