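import Mathlib
import Cfsg.Agent.Lib.JFMb

set_option autoImplicit false
set_option linter.unusedSectionVars false
set_option linter.unusedVariables false

open Cfsg

namespace Cfsg.Agent.Lib.JFM

open Cfsg.Agent.Lib.FFMod Cfsg.Agent.Lib.PCore

section Setup3

variable {p : ℕ} [hp : Fact p.Prime] {Γ : Type*} [Group Γ] [Finite Γ] {E : Type*} [AddCommGroup E]
  [Module (ZMod p) E] [Finite E]

theorem exists_conj_mem_sylow (T : Sylow p Γ) {M : Subgroup Γ} (hTM : (T : Subgroup Γ) ≤ M) {z : Γ}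
    (hz : z ∈ M) (hzp : z ^ p = 1) : ∃ m ∈ M, m * z * m⁻¹ ∈ (T : Subgroup Γ) := by
  classical
  let z' : M := ⟨z, hz⟩
  have hz' : z' ^ p = 1 := Subtype.ext hzp
  have hP : IsPGroup p (Subgroup.zpowers z') := by
    rw [IsPGroup.iff_card, Nat.card_zpowers]
    have h1 : orderOf z' ∣ p ^ 1 := by
      rw [pow_one]
      exact orderOf_dvd_of_pow_eq_one hz'
    obtain ⟨k, -, hk⟩ := (Nat.dvd_prime_pow (Fact.out : p.Prime)).mp h1
    exact ⟨k, hk⟩
  obtain ⟨Q, hQ⟩ := hP.exists_le_sylow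
  let T' : Sylow p M := T.subtype hTM
  obtain ⟨m, hm⟩ := MulAction.exists_smul_eq M Q T'
  have h1 : z' ∈ (Q : Subgroup M) := hQ (Subgroup.mem_zpowers z')
  have h2 : m * z' * m⁻¹ ∈ (T' : Subgroup M) := by
    rw [← hm, Sylow.smul_def, Sylow.pointwise_smul_def]
    have e : m * z' * m⁻¹ = MulAut.conj m • z' := rfl
    rw [e]
    exact Subgroup.smul_mem_pointwise_smul _ _ _ h1
  refine ⟨m, m.2, ?_⟩
  have h3 : m * z' * m⁻¹ ∈ (T : Subgroup Γ).subgroupOf M := by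
    have : (T' : Subgroup M) = (T : Subgroup Γ).subgroupOf M := Sylow.coe_subtype _ _
    rwa [this] at h2
  exact h3

namespace Setup

variable {ρ : Γ →* Module.End (ZMod p) E} {T : Sylow p Γ} {M A : Subgroup Γ} (S : Setup ρ T M A)

include S

theorem facts : ∃ e, Nat.card A = p ^ e ∧
    Module.finrank (ZMod p) (fixS ρ A) = e + Module.finrank (ZMod p) (fixS ρ (⊤ : Subgroup Γ)) ∧
    Module.finrank (ZMod p) E = e + Module.finrank (ZMod p) (fixS ρ A) ∧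
    (∀ x, x ∉ M → fixS ρ A ⊔ (fixS ρ A).map (ρ x) = ⊤) ∧ A ⊓ pCore p Γ = ⊥ ∧ pCore p Γ = ⊥ := by
  obtain ⟨e, he⟩ := IsPGroup.iff_card.mp S.isBO.isPGroup
  refine ⟨e, he, ?_⟩
  obtain ⟨x₀, hx₀⟩ := S.exists_not_mem
  obtain ⟨h1, h2, h3, h4, h5⟩ := S.chain hx₀ he
  refine ⟨h4, h5, ?_, h1, h2⟩
  intro x hx
  rw [S.sup_eq hx₀ hx, h3]

theorem reg {a : Γ} (ha : a ∈ A) {v : E} (hvU : v ∉ fixS ρ A) (hc : ρ a v - v ∈ fixS ρ (⊤ : Subgroup Γ)) :
    a = 1 := by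
  obtain ⟨e, -, -, -, h3, h4, -⟩ := S.facts
  obtain ⟨x₀, hx₀⟩ := S.exists_not_mem
  have h5 : v ∈ fixS ρ A ⊔ (fixS ρ A).map (ρ x₀) := by
    rw [h3 x₀ hx₀]
    trivial
  have h6 := S.mem_pCore_of_core ha (S.key ha hx₀ h5 hvU hc)
  have h7 : a ∈ A ⊓ pCore p Γ := ⟨ha, h6⟩
  rw [h4] at h7
  exact h7

theorem surj {w : E} (hw : w ∉ fixS ρ A) {u : E} (hu : u ∈ fixS ρ A) :
    ∃ a ∈ A, ρ a w - w - u ∈ fixS ρ (⊤ : Subgroup Γ) := by
  classical
  obtain ⟨e, he, h1, -, -, -, -⟩ := S.facts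
  obtain ⟨φ, hφ⟩ := S.exists_phi w (fixS ρ A) S.C_le_U (fun a ha => S.quad ha w)
  have hinj : Function.Injective φ := by
    rw [injective_iff_map_eq_one]
    rintro ⟨a, c⟩ hx
    have h3 := hφ a c.toAdd
    have h5 : (((φ (a, Multiplicative.ofAdd c.toAdd)).toAdd : fixS ρ A) : E) = 0 := by
      show (((φ (a, c)).toAdd : fixS ρ A) : E) = 0
      rw [hx]
      rfl
    rw [h5] at h3
    have h6 : ρ a w - w = -(c.toAdd : E) := by
      rw [eq_neg_iff_add_eq_zero]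
      exact h3.symm
    have h7 : (a : Γ) = 1 := S.reg a.2 hw (by
      rw [h6]
      exact Submodule.neg_mem _ c.toAdd.2)
    have h8 : a = 1 := Subtype.ext h7
    subst h8
    have h9 : ρ ((1 : A) : Γ) w - w = 0 := by
      simp
    rw [h9, zero_add] at h3
    have h10 : c.toAdd = 0 := Subtype.ext h3.symm
    have h11 : c = 1 := Multiplicative.toAdd.injective h10
    rw [h11]
    rfl
  have hcard : Nat.card (Multiplicative (fixS ρ A)) ≤ Nat.card (A × Multiplicative (fixS ρ (⊤ : Subgroup Γ))) := by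
    rw [Nat.card_prod, show Nat.card (Multiplicative (fixS ρ A)) = Nat.card (fixS ρ A) from
      Nat.card_congr Multiplicative.toAdd, show Nat.card (Multiplicative (fixS ρ (⊤ : Subgroup Γ))) =
      Nat.card (fixS ρ (⊤ : Subgroup Γ)) from Nat.card_congr Multiplicative.toAdd, he,
      card_eq_pow (fixS ρ A), card_eq_pow (fixS ρ (⊤ : Subgroup Γ)), ← pow_add, h1]
  have hbij := Function.Injective.bijective_of_nat_card_le hinj hcard
  obtain ⟨⟨a, c⟩, hac⟩ := hbij.2 (Multiplicative.ofAdd ⟨u, hu⟩)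
  refine ⟨a, a.2, ?_⟩
  have h3 := hφ a c.toAdd
  have h4 : (((φ (a, Multiplicative.ofAdd c.toAdd)).toAdd : fixS ρ A) : E) = u := by
    show (((φ (a, c)).toAdd : fixS ρ A) : E) = u
    rw [hac]
    rfl
  rw [h4] at h3
  have h5 : ρ a w - w - u = -(c.toAdd : E) := by
    rw [h3]
    abel
  rw [h5]
  exact Submodule.neg_mem _ c.toAdd.2

theorem U_eq : fixS ρ A = comS ρ A ⊔ fixS ρ (⊤ : Subgroup Γ) := by
  apply le_antisymm
  · intro u hu
    obtain ⟨x₀, hx₀⟩ := S.exists_not_mem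
    obtain ⟨d, hdT, hdC⟩ := S.H3
    have hdU : d ∈ fixS ρ A := fixS_anti ρ S.hAT hdT
    have hyU : ρ x₀ d ∉ fixS ρ A := by
      intro h
      have h1 : ρ x₀ d ∈ fixS ρ A ⊓ (fixS ρ A).map (ρ x₀) := ⟨h, ⟨d, hdU, rfl⟩⟩
      rw [S.inter hx₀] at h1
      apply hdC
      have h2 : ρ x₀⁻¹ (ρ x₀ d) = ρ x₀ d := h1 _ trivial
      rw [rr] at h2
      rw [h2]
      exact h1
    obtain ⟨a, ha, h3⟩ := S.surj hyU hu
    have e : u = (ρ a (ρ x₀ d) - ρ x₀ d) - (ρ a (ρ x₀ d) - ρ x₀ d - u) := by abel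
    rw [e]
    exact Submodule.sub_mem _ (Submodule.mem_sup_left (sub_mem_comS ρ ha _)) (Submodule.mem_sup_right h3)
  · apply sup_le _ S.C_le_U
    rw [comS, Submodule.span_le]
    rintro _ ⟨b, hb, v, rfl⟩
    exact S.quad hb v

/-- Fusion in `M`. -/
theorem fusion {a : Γ} (ha : a ∈ A) {g : Γ} (hg : g ∉ M) (hz : g⁻¹ * a * g ∈ M) : a = 1 := by
  obtain ⟨d, hdT, hdC⟩ := S.H3
  have hdU : d ∈ fixS ρ A := fixS_anti ρ S.hAT hdT
  have hzp : (g⁻¹ * a * g) ^ p = 1 := by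
    have : g⁻¹ * a * g = (MulAut.conj g⁻¹) a := by simp [MulAut.conj_apply]
    rw [this, ← map_pow, S.pow a ha, map_one]
  obtain ⟨m, hm, hmT⟩ := exists_conj_mem_sylow T S.hTM hz hzp
  have h1 : ρ (m * (g⁻¹ * a * g) * m⁻¹) d = d := hdT _ hmT
  set h := g * m⁻¹ with hh
  have hhM : h ∉ M := fun h' => hg (by
    have : g = h * m := by rw [hh]; group
    rw [this]
    exact M.mul_mem h' hm)
  have h2 : ρ a (ρ h d) = ρ h d := by
    have e : a * h = h * (m * (g⁻¹ * a * g) * m⁻¹) := by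
      rw [hh]
      group
    rw [← rmul, e, rmul, h1]
  have hwU : ρ h d ∉ fixS ρ A := by
    intro h'
    have h3 : ρ h d ∈ fixS ρ A ⊓ (fixS ρ A).map (ρ h) := ⟨h', ⟨d, hdU, rfl⟩⟩
    rw [S.inter hhM] at h3
    apply hdC
    have h4 : ρ h⁻¹ (ρ h d) = ρ h d := h3 _ trivial
    rw [rr] at h4
    rw [h4]
    exact h3
  apply S.reg ha hwU
  rw [h2, sub_self]
  exact Submodule.zero_mem _

theorem cover {x₀ : Γ} (hx₀ : x₀ ∉ M) {v : E} (hv : v ∉ fixS ρ A) :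
    ∃ a ∈ A, v ∈ (fixS ρ A).map (ρ (a * x₀)) := by
  obtain ⟨e, -, -, -, h3, -, -⟩ := S.facts
  have h5 : v ∈ fixS ρ A ⊔ (fixS ρ A).map (ρ x₀) := by
    rw [h3 x₀ hx₀]
    trivial
  obtain ⟨u, hu, w, hw, rfl⟩ := Submodule.mem_sup.mp h5
  have hwU : w ∉ fixS ρ A := fun h => hv (Submodule.add_mem _ hu h)
  obtain ⟨a, ha, hc⟩ := S.surj hwU hu
  refine ⟨a, ha, ?_⟩
  have e1 : u + w = ρ a w - (ρ a w - w - u) := by abel
  rw [e1]
  refine Submodule.sub_mem _ ?_ (S.C_le_map _ hc)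
  rw [map_rho_mul]
  exact ⟨w, hw, rfl⟩

theorem M_stab {m : Γ} (hm : m ∈ M) : (fixS ρ A).map (ρ m) = fixS ρ A := by
  apply mem_stabS_of_forall
  intro w hw
  by_contra hv
  obtain ⟨x₀, hx₀⟩ := S.exists_not_mem
  obtain ⟨a, ha, hc⟩ := S.cover hx₀ hv
  have hy : m⁻¹ * (a * x₀) ∉ M := by
    intro h
    apply hx₀
    have e1 : x₀ = a⁻¹ * (m * (m⁻¹ * (a * x₀))) := by group
    rw [e1]
    exact M.mul_mem (M.inv_mem (S.A_le_M ha)) (M.mul_mem hm h)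
  have h1 : w ∈ fixS ρ A ⊓ (fixS ρ A).map (ρ (m⁻¹ * (a * x₀))) := by
    refine ⟨hw, ?_⟩
    show _ ∈ Submodule.map _ _
    rw [map_rho_mul]
    refine ⟨ρ m w, hc, ?_⟩
    show ρ m⁻¹ (ρ m w) = w
    exact rr ρ m w
  rw [S.inter hy] at h1
  have h2 : ρ m w = w := h1 m trivial
  rw [h2] at hv
  exact hv hw

theorem hinv {x₀ : Γ} (hx₀ : x₀ ∉ M) {a₁ : Γ} (ha₁ : a₁ ∈ A) (ha₁1 : a₁ ≠ 1) :
    ∃ a ∈ A, (fixS ρ A).map (ρ (x₀ * a₁ * x₀⁻¹)) = (fixS ρ A).map (ρ (a * x₀)) := by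
  set b := x₀ * a₁ * x₀⁻¹ with hb
  have hbM : b ∉ M := by
    intro h
    apply ha₁1
    refine S.fusion ha₁ (g := x₀⁻¹) (fun h' => hx₀ ?_) ?_
    · simpa using M.inv_mem h'
    · simpa [hb] using h
  obtain ⟨d, hdT, hdC⟩ := S.H3
  have hdU : d ∈ fixS ρ A := fixS_anti ρ S.hAT hdT
  have hbd : ρ b d ∉ fixS ρ A := by
    intro h'
    have h3 : ρ b d ∈ fixS ρ A ⊓ (fixS ρ A).map (ρ b) := ⟨h', ⟨d, hdU, rfl⟩⟩
    rw [S.inter hbM] at h3
    apply hdC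
    have h4 : ρ b⁻¹ (ρ b d) = ρ b d := h3 _ trivial
    rw [rr] at h4
    rw [h4]
    exact h3
  obtain ⟨a, ha, hc⟩ := S.cover hx₀ hbd
  refine ⟨a, ha, ?_⟩
  have hyM : b⁻¹ * (a * x₀) ∈ M := by
    by_contra hy
    have h1 : d ∈ fixS ρ A ⊓ (fixS ρ A).map (ρ (b⁻¹ * (a * x₀))) := by
      refine ⟨hdU, ?_⟩
      show _ ∈ Submodule.map _ _
      rw [map_rho_mul]
      exact ⟨ρ b d, hc, rr ρ b d⟩
    rw [S.inter hy] at h1
    exact hdC h1
  have e1 : a * x₀ = b * (b⁻¹ * (a * x₀)) := by group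
  have e2 : (fixS ρ A).map (ρ (a * x₀)) = (fixS ρ A).map (ρ b) := by
    rw [e1, map_rho_mul ρ (fixS ρ A) b (b⁻¹ * (a * x₀)), S.M_stab hyM]
  exact e2.symm

theorem kernel_trivial {g : Γ} (hg : ∀ v, ρ g v - v ∈ fixS ρ (⊤ : Subgroup Γ)) : g = 1 := by
  classical
  obtain ⟨e, -, -, -, -, -, h5⟩ := S.facts
  let K : Subgroup Γ :=
    { carrier := {g | ∀ v, ρ g v - v ∈ fixS ρ (⊤ : Subgroup Γ)}
      mul_mem' := by
        intro a b ha hb v
        have e1 : ρ (a * b) v - v = (ρ a (ρ b v) - ρ b v) + (ρ b v - v) := by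
          rw [rmul]
          abel
        rw [e1]
        exact Submodule.add_mem _ (ha _) (hb _)
      one_mem' := by
        intro v
        rw [map_one]
        simp
      inv_mem' := by
        intro a ha v
        have h1 := ha (ρ a⁻¹ v)
        rw [rr'] at h1
        have e1 : ρ a⁻¹ v - v = -(v - ρ a⁻¹ v) := by abel
        rw [e1]
        exact Submodule.neg_mem _ h1 }
  have hKn : K.Normal := by
    constructor
    intro a ha h v
    show ρ (h * a * h⁻¹) v - v ∈ _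
    have h1 := ha (ρ h⁻¹ v)
    have h2 : ρ h (ρ a (ρ h⁻¹ v) - ρ h⁻¹ v) = ρ a (ρ h⁻¹ v) - ρ h⁻¹ v := h1 h trivial
    rw [map_sub, rr'] at h2
    rw [rmul, rmul, h2]
    exact h1
  have hKp : IsPGroup p K := by
    rintro ⟨a, ha⟩
    refine ⟨1, ?_⟩
    apply Subtype.ext
    apply S.inj
    rw [pow_one]
    show ρ (a ^ p) = ρ 1
    rw [map_one, map_pow]
    apply LinearMap.ext
    intro v
    have h1 : ∀ k : ℕ, (ρ a ^ k) v = v + k • (ρ a v - v) := by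
      intro k
      induction k with
      | zero => simp
      | succ k ih =>
        rw [pow_succ', Module.End.mul_apply, ih, map_add, map_nsmul]
        have h2 : ρ a (ρ a v - v) = ρ a v - v := ha v a trivial
        rw [h2, succ_nsmul]
        abel
    rw [h1, Module.End.one_apply]
    have h3 : p • (ρ a v - v) = 0 := by
      rw [← Nat.cast_smul_eq_nsmul (ZMod p), ZMod.natCast_self, zero_smul]
    rw [h3, add_zero]
  have hK : K ≤ pCore p Γ := le_pCore hKn hKp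
  rw [h5] at hK
  exact hK hg

end Setup

end Setup3

end Cfsg.Agent.Lib.JFM
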