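import Mathlib
import Cfsg.Agent.Lib.JF6
import Cfsg.Agent.Lib.SL2NaturalModule

set_option autoImplicit false
set_option linter.unusedSectionVars false
set_option linter.unusedVariables false

namespace Cfsg.Agent.Lib.JFS

open Cfsg.Agent.Lib.JF

section FieldPart

variable {R : Type*} [Ring R] [Finite R]

/-- the pair `J, K` of additive subgroups, with inverses of `K` in `J`, and the same order,
is a single field. -/
theorem pair_surj [Nontrivial R] {J K : AddSubgroup R}
    (hKJ : ∀ y ∈ K, y ≠ 0 → ∃ x ∈ J, x * y = 1 ∧ y * x = 1)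
    (hcard : Nat.card K = Nat.card J) :
    ∀ x ∈ J, x ≠ 0 → ∃ y ∈ K, x * y = 1 ∧ y * x = 1 := by
  classical
  haveI : Finite J := inferInstance
  haveI : Finite K := inferInstance
  -- the inverse map `K → J`
  have hinv : ∀ y : K, ∃ x : J, ((y : R) = 0 ∧ (x : R) = 0) ∨
      ((y : R) ≠ 0 ∧ (x : R) * y = 1 ∧ (y : R) * x = 1) := by
    rintro ⟨y, hy⟩
    by_cases h0 : y = 0
    · exact ⟨0, Or.inl ⟨h0, rfl⟩⟩
    · obtain ⟨x, hx, h1, h2⟩ := hKJ y hy h0
      exact ⟨⟨x, hx⟩, Or.inr ⟨h0, h1, h2⟩⟩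
  choose φ hφ using hinv
  have hφinj : Function.Injective φ := by
    intro y y' h
    rcases hφ y with ⟨h1, h2⟩ | ⟨h1, h2, h3⟩ <;> rcases hφ y' with ⟨h4, h5⟩ | ⟨h4, h5, h6⟩
    · exact Subtype.ext (h1.trans h4.symm)
    · exfalso
      rw [← h, h2, zero_mul] at h5
      exact zero_ne_one h5
    · exfalso
      rw [h, h5, zero_mul] at h2
      exact zero_ne_one h2
    · apply Subtype.ext
      rw [← h] at h5 h6
      calc (y : R) = y * ((φ y : R) * y') := by rw [h5, mul_one]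
        _ = ((y : R) * φ y) * y' := by rw [mul_assoc]
        _ = y' := by rw [h3, one_mul]
  have hφbij : Function.Bijective φ :=
    Function.Injective.bijective_of_nat_card_le hφinj hcard.ge
  intro x hx h0
  obtain ⟨y, hy⟩ := hφbij.2 ⟨x, hx⟩
  rcases hφ y with ⟨h1, h2⟩ | ⟨h1, h2, h3⟩
  · exfalso
    rw [hy] at h2
    exact h0 h2
  · rw [hy] at h2 h3
    exact ⟨y, y.2, h2, h3⟩

/-- Field structure on `J`. -/
theorem exists_iota (p : ℕ) [hp : Fact p.Prime] [CharP R p] {J K : AddSubgroup R}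
    (h1J : (1 : R) ∈ J) (h1K : (1 : R) ∈ K)
    (hKJ : ∀ y ∈ K, y ≠ 0 → ∃ x ∈ J, x * y = 1 ∧ y * x = 1)
    (hcard : Nat.card K = Nat.card J) (n : ℕ) (hn : n ≠ 0) (hJn : Nat.card J = p ^ n) :
    ∃ (ι : GaloisField p n →+* R), (∀ c, ι c ∈ J) ∧ (∀ x ∈ J, ∃ c, ι c = x) ∧ (∀ y ∈ K, ∃ c, ι c = y) ∧
      (∀ c, ι c ∈ K) := by
  classical
  haveI : Nontrivial R := CharP.nontrivial_of_char_ne_one (v := p) hp.out.ne_one
  have hJK := pair_surj hKJ hcard
  have hJ : IsJ J := isJ_of_inv_pair h1J h1K hJK hKJ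
  have hcomm := comm_of_isJ p J hJ
  have hmul : ∀ {x y : R}, x ∈ J → y ∈ J → x * y ∈ J := fun hx hy => mul_mem_of_isJ p hJ hx hy
  let S : Subring R :=
    { carrier := J
      mul_mem' := hmul
      one_mem' := h1J
      add_mem' := fun hx hy => J.add_mem hx hy
      zero_mem' := J.zero_mem
      neg_mem' := fun hx => J.neg_mem hx }
  have hF : IsField S :=
    { exists_pair_ne := ⟨0, 1, by
        intro h
        have := congrArg Subtype.val h
        simp at this⟩
      mul_comm := fun x y => Subtype.ext (hcomm _ x.2 _ y.2)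
      mul_inv_cancel := by
        intro x hx
        obtain ⟨y, hy, h1, h2⟩ := hJ.inv x x.2 (fun h => hx (Subtype.ext h))
        exact ⟨⟨y, hy⟩, Subtype.ext h1⟩ }
  letI : Field S := hF.toField
  letI : Fintype S := Fintype.ofFinite S
  letI : Fintype (GaloisField p n) := Fintype.ofFinite _
  have hc : Fintype.card S = Fintype.card (GaloisField p n) := by
    rw [← Nat.card_eq_fintype_card, ← Nat.card_eq_fintype_card, GaloisField.card p n hn]
    exact hJn
  let e : GaloisField p n ≃+* S := (FiniteField.ringEquivOfCardEq hc).symm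
  let ι : GaloisField p n →+* R := S.subtype.comp e.toRingHom
  have hι : ∀ c, ι c ∈ J := fun c => (e c).2
  have hιs : ∀ x ∈ J, ∃ c, ι c = x := by
    intro x hx
    refine ⟨e.symm ⟨x, hx⟩, ?_⟩
    show ((e (e.symm ⟨x, hx⟩) : S) : R) = x
    rw [e.apply_symm_apply]
  refine ⟨ι, hι, hιs, ?_, ?_⟩
  · intro y hy
    by_cases h0 : y = 0
    · exact ⟨0, by rw [map_zero, h0]⟩
    obtain ⟨x, hx, h1, h2⟩ := hKJ y hy h0
    have hx0 : x ≠ 0 := by
      intro h
      rw [h, zero_mul] at h1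
      exact zero_ne_one h1
    obtain ⟨x', hx', h3, h4⟩ := hJ.inv x hx hx0
    have : x' = y := by
      calc x' = (y * x) * x' := by rw [h2, one_mul]
        _ = y * (x * x') := by rw [mul_assoc]
        _ = y := by rw [h3, mul_one]
    exact hιs y (this ▸ hx')
  · intro c
    by_cases h0 : ι c = 0
    · rw [h0]
      exact K.zero_mem
    obtain ⟨x, hx, h1, h2⟩ := hJ.inv _ (hι c) h0
    have hx0 : x ≠ 0 := by
      intro h
      rw [h, zero_mul] at h2
      exact zero_ne_one h2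
    obtain ⟨y, hy, h3, h4⟩ := hJK x hx hx0
    have : y = ι c := by
      calc y = (ι c * x) * y := by rw [h1, one_mul]
        _ = ι c * (x * y) := by rw [mul_assoc]
        _ = ι c := by rw [h3, mul_one]
    exact this ▸ hy

end FieldPart

section Coord

variable {p : ℕ} [hp : Fact p.Prime] {W X Γ : Type*} [AddCommGroup W] [Module (ZMod p) W] [Finite W]
  [Nontrivial W] [AddCommGroup X] [Module (ZMod p) X] [Group Γ]
  {F : Type*} [Field F] [Finite F]

open Cfsg.Agent.Lib.SL2NaturalModule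

theorem sl2_eq_of_mulVec {n n' : Matrix.SpecialLinearGroup (Fin 2) F}
    (h : ∀ v : Fin 2 → F, (ent n).mulVec v = (ent n').mulVec v) : n = n' := by
  apply Subtype.ext
  ext i j
  have := congrFun (h (Pi.single j 1)) i
  simpa [ent] using this

theorem coord (ι : F →+* Module.End (ZMod p) W) (hcard : Nat.card F = Nat.card W)
    (u w : W →ₗ[ZMod p] X) (hΞ : Function.Bijective (fun s : W × W => u s.1 + w s.2))
    (ρ : Γ →* Module.End (ZMod p) X) (hρ : Function.Injective ρ)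
    (A B : Subgroup Γ) (hAB : A ⊔ B = ⊤)
    (hA : ∀ a ∈ A, ∃ j : F, ∀ s t, ρ a (u s + w t) = u (s + ι j t) + w t)
    (hB : ∀ b ∈ B, ∃ j : F, ∀ s t, ρ b (u s + w t) = u s + w (ι j s + t))
    (hAs : ∀ j : F, ∃ a ∈ A, ∀ s t, ρ a (u s + w t) = u (s + ι j t) + w t)
    (hBs : ∀ j : F, ∃ b ∈ B, ∀ s t, ρ b (u s + w t) = u s + w (ι j s + t)) :
    ∃ (r : Γ →* Matrix.SpecialLinearGroup (Fin 2) F) (ψ : X ≃+ (Fin 2 → F)),
      Function.Bijective r ∧ ∀ g v, ψ (ρ g v) = (r g).1.mulVec (ψ v) := by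
  classical
  obtain ⟨w₀, hw₀⟩ := exists_ne (0 : W)
  let θ : F →+ W :=
    { toFun := fun c => ι c w₀
      map_zero' := by simp
      map_add' := fun c d => by simp }
  have hθ_apply : ∀ c, θ c = ι c w₀ := fun _ => rfl
  have hθ_mul : ∀ c d, θ (c * d) = ι c (θ d) := by
    intro c d
    rw [hθ_apply, hθ_apply, map_mul, Module.End.mul_apply]
  have hθ_inj : Function.Injective θ := by
    rw [injective_iff_map_eq_zero]
    intro c hc
    by_contra h0
    apply hw₀
    have h1 : ι (c⁻¹ * c) w₀ = w₀ := by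
      rw [inv_mul_cancel₀ h0, map_one, Module.End.one_apply]
    rw [← h1, map_mul, Module.End.mul_apply, ← hθ_apply, hc, map_zero]
  have hθ_bij : Function.Bijective θ :=
    Function.Injective.bijective_of_nat_card_le hθ_inj hcard.ge
  let ξ : (Fin 2 → F) →+ X :=
    { toFun := fun v => u (θ (v 0)) + w (θ (v 1))
      map_zero' := by simp
      map_add' := fun c d => by
        simp only [Pi.add_apply, map_add]
        abel }
  have hξ_apply : ∀ v, ξ v = u (θ (v 0)) + w (θ (v 1)) := fun _ => rfl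
  have hξ_inj : Function.Injective ξ := by
    intro v v' h
    have h1 : ((θ (v 0), θ (v 1)) : W × W) = (θ (v' 0), θ (v' 1)) := hΞ.1 h
    have h2 := hθ_inj (Prod.ext_iff.mp h1).1
    have h3 := hθ_inj (Prod.ext_iff.mp h1).2
    ext i
    fin_cases i
    · exact h2
    · exact h3
  have hξ_surj : Function.Surjective ξ := by
    intro x
    obtain ⟨⟨s, t⟩, hst⟩ := hΞ.2 x
    obtain ⟨c, rfl⟩ := hθ_bij.2 s
    obtain ⟨d, rfl⟩ := hθ_bij.2 t
    exact ⟨![c, d], hst⟩
  have hρinv : ∀ (g : Γ) (y : X), ρ g⁻¹ (ρ g y) = y := by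
    intro g y
    rw [← Module.End.mul_apply, ← map_mul, inv_mul_cancel, map_one, Module.End.one_apply]
  let Λ : Subgroup Γ :=
    { carrier := {g | ∃ m : Matrix.SpecialLinearGroup (Fin 2) F, ∀ v, ρ g (ξ v) = ξ ((ent m).mulVec v)}
      mul_mem' := by
        rintro g h ⟨m, hm⟩ ⟨n, hn⟩
        refine ⟨m * n, fun v => ?_⟩
        rw [map_mul, Module.End.mul_apply, hn, hm, ent_mul, Matrix.mulVec_mulVec]
      one_mem' := ⟨1, fun v => by simp [ent_one]⟩
      inv_mem' := by
        rintro g ⟨m, hm⟩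
        refine ⟨m⁻¹, fun v => ?_⟩
        have h1 := hm ((ent m⁻¹).mulVec v)
        rw [Matrix.mulVec_mulVec, ← ent_mul, mul_inv_cancel, ent_one, Matrix.one_mulVec] at h1
        rw [← h1, hρinv] }
  have hAΛ : A ≤ Λ := by
    intro a ha
    obtain ⟨j, hj⟩ := hA a ha
    refine ⟨up j, fun v => ?_⟩
    rw [hξ_apply, hj, ent_up_mulVec, hξ_apply]
    simp only [Matrix.cons_val_zero, Matrix.cons_val_one, map_add, hθ_mul]
  have hBΛ : B ≤ Λ := by
    intro b hb
    obtain ⟨j, hj⟩ := hB b hb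
    refine ⟨lo j, fun v => ?_⟩
    rw [hξ_apply, hj, ent_lo_mulVec, hξ_apply]
    simp only [Matrix.cons_val_zero, Matrix.cons_val_one, map_add, hθ_mul]
  have hΛ : Λ = ⊤ := by
    rw [eq_top_iff, ← hAB]
    exact sup_le hAΛ hBΛ
  have hm : ∀ g : Γ, ∃ m : Matrix.SpecialLinearGroup (Fin 2) F, ∀ v, ρ g (ξ v) = ξ ((ent m).mulVec v) := by
    intro g
    have : g ∈ Λ := by
      rw [hΛ]
      trivial
    exact this
  choose m hm using hm
  have hmul : ∀ g h, m (g * h) = m g * m h := by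
    intro g h
    apply sl2_eq_of_mulVec
    intro v
    apply hξ_inj
    rw [← hm, ent_mul, ← Matrix.mulVec_mulVec, ← hm, ← hm, map_mul, Module.End.mul_apply]
  let r : Γ →* Matrix.SpecialLinearGroup (Fin 2) F := MonoidHom.mk' m hmul
  have hr : ∀ g, r g = m g := fun _ => rfl
  have hr_inj : Function.Injective r := by
    intro g g' h
    apply hρ
    apply LinearMap.ext
    intro x
    obtain ⟨v, rfl⟩ := hξ_surj x
    rw [hm, hm, ← hr, ← hr, h]
  have hr_surj : Function.Surjective r := by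
    intro n
    induction n using sl2_induction with
    | hmul a b ha hb =>
      obtain ⟨g, rfl⟩ := ha
      obtain ⟨h, rfl⟩ := hb
      exact ⟨g * h, map_mul _ _ _⟩
    | hup x =>
      obtain ⟨a, ha, hj⟩ := hAs x
      refine ⟨a, ?_⟩
      apply sl2_eq_of_mulVec
      intro v
      apply hξ_inj
      rw [hr, ← hm, hξ_apply, hj, ent_up_mulVec, hξ_apply]
      simp only [Matrix.cons_val_zero, Matrix.cons_val_one, map_add, hθ_mul]
    | hlo x =>
      obtain ⟨b, hb, hj⟩ := hBs x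
      refine ⟨b, ?_⟩
      apply sl2_eq_of_mulVec
      intro v
      apply hξ_inj
      rw [hr, ← hm, hξ_apply, hj, ent_lo_mulVec, hξ_apply]
      simp only [Matrix.cons_val_zero, Matrix.cons_val_one, map_add, hθ_mul]
  refine ⟨r, (AddEquiv.ofBijective ξ ⟨hξ_inj, hξ_surj⟩).symm, ⟨hr_inj, hr_surj⟩, ?_⟩
  intro g x
  apply hξ_inj
  obtain ⟨v, rfl⟩ := hξ_surj x
  have e : ∀ y : Fin 2 → F, (AddEquiv.ofBijective ξ ⟨hξ_inj, hξ_surj⟩).symm (ξ y) = y := fun y =>
    (AddEquiv.ofBijective ξ ⟨hξ_inj, hξ_surj⟩).symm_apply_apply y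
  have e' : ∀ y : X, ξ ((AddEquiv.ofBijective ξ ⟨hξ_inj, hξ_surj⟩).symm y) = y := fun y =>
    (AddEquiv.ofBijective ξ ⟨hξ_inj, hξ_surj⟩).apply_symm_apply y
  rw [e', e, hr]
  exact hm g v

end Coord

end Cfsg.Agent.Lib.JFS
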