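import Mathlib
import Cfsg.Agent.Lib.JFSa

set_option autoImplicit false
set_option linter.unusedSectionVars false
set_option linter.unusedVariables false

namespace Cfsg.Agent.Lib.JFS

section Spread

variable {p : ℕ} [hp : Fact p.Prime] {X Γ : Type*} [Group Γ] [Finite Γ] [AddCommGroup X]
  [Module (ZMod p) X] [Finite X]

theorem exists_add_of_isCompl {U W : Submodule (ZMod p) X} (hUW : IsCompl U W) (x : X) :
    ∃ u ∈ U, ∃ w ∈ W, u + w = x := by
  have : x ∈ U ⊔ W := by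
    rw [hUW.sup_eq_top]
    trivial
  exact Submodule.mem_sup.mp this

theorem eq_of_add_eq {U W : Submodule (ZMod p) X} (hUW : IsCompl U W) {u u' w w' : X}
    (hu : u ∈ U) (hu' : u' ∈ U) (hw : w ∈ W) (hw' : w' ∈ W) (h : u + w = u' + w') :
    u = u' ∧ w = w' := by
  have h1 : u - u' = w' - w := by
    rw [sub_eq_sub_iff_add_eq_add, h, add_comm]
  have h2 : u - u' ∈ U ⊓ W := ⟨U.sub_mem hu hu', h1 ▸ W.sub_mem hw' hw⟩
  rw [hUW.inf_eq_bot, Submodule.mem_bot] at h2
  have h3 : u = u' := sub_eq_zero.mp h2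
  refine ⟨h3, ?_⟩
  rw [h3] at h
  exact add_left_cancel h

theorem spread (ρ : Γ →* Module.End (ZMod p) X) (hρ : Function.Injective ρ)
    (U W : Submodule (ZMod p) X) (hUW : IsCompl U W)
    (A B : Subgroup Γ) (hAB : A ⊔ B = ⊤)
    (hAc : ∀ a ∈ A, ∀ v, ρ a v - v ∈ U) (hAf : ∀ a ∈ A, ∀ u ∈ U, ρ a u = u)
    (hBc : ∀ b ∈ B, ∀ v, ρ b v - v ∈ W) (hBf : ∀ b ∈ B, ∀ u ∈ W, ρ b u = u)
    (hAreg : ∀ a ∈ A, a ≠ 1 → ∀ w ∈ W, w ≠ 0 → ρ a w ≠ w)
    (hcU : Nat.card A = Nat.card U) (hcW : Nat.card U = Nat.card W)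
    (hcB : Nat.card B = Nat.card A) (hA0 : A ≠ ⊥)
    (hinv : ∀ b ∈ B, b ≠ 1 → ∃ a ∈ A, U.map (ρ b) = W.map (ρ a)) :
    ∃ (F : Type) (_ : Field F) (_ : Fintype F), Fintype.card F = Nat.card A ∧
      ∃ (r : Γ →* Matrix.SpecialLinearGroup (Fin 2) F) (ψ : X ≃+ (Fin 2 → F)),
        Function.Bijective r ∧ ∀ g v, ψ (ρ g v) = (r g).1.mulVec (ψ v) := by
  classical
  obtain ⟨a₀, ha₀, ha₀1⟩ : ∃ a ∈ A, a ≠ 1 := by
    obtain ⟨a, h⟩ := Subgroup.ne_bot_iff_exists_ne_one.mp hA0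
    exact ⟨a, a.2, fun h' => h (Subtype.ext h')⟩
  have hA1 : 1 < Nat.card A := by
    haveI : Nontrivial A := (Subgroup.nontrivial_iff_ne_bot A).mpr hA0
    exact Finite.one_lt_card
  haveI hUn : Nontrivial U := Finite.one_lt_card_iff_nontrivial.mp (hcU ▸ hA1)
  haveI hWn : Nontrivial W := Finite.one_lt_card_iff_nontrivial.mp (hcW ▸ hcU ▸ hA1)
  let f : A → (W →ₗ[ZMod p] U) := fun a =>
    LinearMap.codRestrict U ((ρ a - 1) ∘ₗ W.subtype) (fun w => hAc a a.2 w)
  have hf : ∀ (a : A) (w : W), (f a w : X) = ρ a w - w := fun _ _ => rfl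
  let g : B → (U →ₗ[ZMod p] W) := fun b =>
    LinearMap.codRestrict W ((ρ b - 1) ∘ₗ U.subtype) (fun w => hBc b b.2 w)
  have hg : ∀ (b : B) (u : U), (g b u : X) = ρ b u - u := fun _ _ => rfl
  have hf_mul : ∀ a a' : A, f (a * a') = f a + f a' := by
    intro a a'
    ext w
    simp only [LinearMap.add_apply, Submodule.coe_add, hf]
    have h1 : ρ a (ρ a' w - w) = ρ a' w - w := hAf a a.2 _ (hAc a' a'.2 _)
    rw [map_sub] at h1
    simp only [Subgroup.coe_mul, map_mul, Module.End.mul_apply]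
    rw [sub_eq_iff_eq_add] at h1 ⊢
    rw [h1]
    abel
  have hg_mul : ∀ a a' : B, g (a * a') = g a + g a' := by
    intro a a'
    ext w
    simp only [LinearMap.add_apply, Submodule.coe_add, hg]
    have h1 : ρ a (ρ a' w - w) = ρ a' w - w := hBf a a.2 _ (hBc a' a'.2 _)
    rw [map_sub] at h1
    simp only [Subgroup.coe_mul, map_mul, Module.End.mul_apply]
    rw [sub_eq_iff_eq_add] at h1 ⊢
    rw [h1]
    abel
  -- injectivity of the labels
  have hf_inj : Function.Injective f := by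
    intro a a' h
    apply Subtype.ext
    apply hρ
    apply LinearMap.ext
    intro x
    obtain ⟨u, hu, w, hw, rfl⟩ := exists_add_of_isCompl hUW x
    rw [map_add, map_add, hAf a a.2 u hu, hAf a' a'.2 u hu]
    have h1 := hf a ⟨w, hw⟩
    rw [h, hf a' ⟨w, hw⟩] at h1
    have h2 : ρ a w - w = ρ a' w - w := h1.symm
    rw [sub_left_inj] at h2
    rw [h2]
  have hg_inj : Function.Injective g := by
    intro a a' h
    apply Subtype.ext
    apply hρ
    apply LinearMap.ext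
    intro x
    obtain ⟨u, hu, w, hw, rfl⟩ := exists_add_of_isCompl hUW x
    rw [map_add, map_add, hBf a a.2 w hw, hBf a' a'.2 w hw]
    have h1 := hg a ⟨u, hu⟩
    rw [h, hg a' ⟨u, hu⟩] at h1
    have h2 : ρ a u - u = ρ a' u - u := h1.symm
    rw [sub_left_inj] at h2
    rw [h2]
  -- the base isomorphism
  have hf₀inj : Function.Injective (f ⟨a₀, ha₀⟩) := by
    rw [injective_iff_map_eq_zero]
    intro w hw
    by_contra h0
    have h1 : (f ⟨a₀, ha₀⟩ w : X) = 0 := by rw [hw]; rfl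
    rw [hf, sub_eq_zero] at h1
    exact hAreg a₀ ha₀ ha₀1 w w.2 (fun h => h0 (Subtype.ext h)) h1
  have hf₀bij : Function.Bijective (f ⟨a₀, ha₀⟩) :=
    Function.Injective.bijective_of_nat_card_le hf₀inj hcW.le
  let f₀ : W ≃ₗ[ZMod p] U := LinearEquiv.ofBijective _ hf₀bij
  have hf₀ : ∀ w, (f₀ w : U) = f ⟨a₀, ha₀⟩ w := fun _ => rfl
  let jmH : Additive A →+ Module.End (ZMod p) W :=
    AddMonoidHom.mk' (fun a => f₀.symm.toLinearMap ∘ₗ f a.toMul) (by
      intro a a'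
      show f₀.symm.toLinearMap ∘ₗ f (a.toMul * a'.toMul) = _
      rw [hf_mul, LinearMap.comp_add])
  let kmH : Additive B →+ Module.End (ZMod p) W :=
    AddMonoidHom.mk' (fun a => g a.toMul ∘ₗ f₀.toLinearMap) (by
      intro a a'
      show g (a.toMul * a'.toMul) ∘ₗ f₀.toLinearMap = _
      rw [hg_mul, LinearMap.add_comp])
  have hjm : ∀ (a : A) (w : W), (f₀ (jmH (Additive.ofMul a) w)) = f a w := by
    intro a w
    show f₀ (f₀.symm (f a w)) = f a w
    rw [LinearEquiv.apply_symm_apply]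
  have hkm : ∀ (b : B) (w : W), kmH (Additive.ofMul b) w = g b (f₀ w) := fun _ _ => rfl
  have hjm_inj : Function.Injective jmH := by
    intro a a' h
    have : f a.toMul = f a'.toMul := by
      ext w
      rw [← hjm, ← hjm]
      have h1 : jmH a w = jmH a' w := by rw [h]
      show ((f₀ (jmH a w) : U) : X) = f₀ (jmH a' w)
      rw [h1]
    exact Additive.toMul.injective (hf_inj this)
  have hkm_inj : Function.Injective kmH := by
    intro a a' h
    have : g a.toMul = g a'.toMul := by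
      ext u
      have h1 : kmH a (f₀.symm u) = kmH a' (f₀.symm u) := by rw [h]
      have h2 := hkm a.toMul (f₀.symm u)
      have h3 := hkm a'.toMul (f₀.symm u)
      rw [LinearEquiv.apply_symm_apply] at h2 h3
      rw [← h2, ← h3]
      exact congrArg _ h1
    exact Additive.toMul.injective (hg_inj this)
  let J : AddSubgroup (Module.End (ZMod p) W) := jmH.range
  let K : AddSubgroup (Module.End (ZMod p) W) := kmH.range
  have hJc : Nat.card J = Nat.card A := by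
    rw [← Nat.card_congr (AddMonoidHom.ofInjective hjm_inj).toEquiv]
    exact Nat.card_congr Additive.toMul
  have hKc : Nat.card K = Nat.card B := by
    rw [← Nat.card_congr (AddMonoidHom.ofInjective hkm_inj).toEquiv]
    exact Nat.card_congr Additive.toMul
  have h1J : (1 : Module.End (ZMod p) W) ∈ J := by
    refine ⟨Additive.ofMul ⟨a₀, ha₀⟩, ?_⟩
    ext w
    show ((f₀.symm (f ⟨a₀, ha₀⟩ w) : W) : X) = w
    rw [← hf₀, LinearEquiv.symm_apply_apply]
  -- the pairing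
  have hpair : ∀ (a : A) (b : B) (u : U) (w : W), ρ a w = ρ b u → (u = f a w ∧ w = g b u) := by
    intro a b u w h
    have e1 : ρ a w = (f a w : X) + w := by rw [hf]; abel
    have e2 : ρ b u = (u : X) + g b u := by rw [hg]; abel
    rw [e1, e2] at h
    obtain ⟨h3, h4⟩ := eq_of_add_eq hUW (f a w).2 u.2 w.2 (g b u).2 h
    exact ⟨(Subtype.ext h3).symm, Subtype.ext h4⟩
  have hKJ : ∀ y ∈ K, y ≠ 0 → ∃ x ∈ J, x * y = 1 ∧ y * x = 1 := by
    rintro y ⟨b', rfl⟩ hy0
    suffices key : ∀ b : B, kmH (Additive.ofMul b) ≠ 0 → ∃ x ∈ J, x * kmH (Additive.ofMul b) = 1 ∧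
        kmH (Additive.ofMul b) * x = 1 from key b'.toMul hy0
    clear hy0 b'
    intro b hy0
    have hb1 : (b : Γ) ≠ 1 := by
      intro h
      apply hy0
      have : b = 1 := Subtype.ext h
      rw [this]
      exact map_zero kmH
    obtain ⟨a, ha, hab⟩ := hinv b b.2 hb1
    have s1 : ∀ u : U, f ⟨a, ha⟩ (g b u) = u := by
      intro u
      have h1 : ρ b u ∈ W.map (ρ a) := by
        rw [← hab]
        exact ⟨u, u.2, rfl⟩
      obtain ⟨w, hw, h2⟩ := h1
      obtain ⟨h3, h4⟩ := hpair ⟨a, ha⟩ b u ⟨w, hw⟩ h2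
      rw [← h4, ← h3]
    have s2 : ∀ w : W, g b (f ⟨a, ha⟩ w) = w := by
      intro w
      have h1 : ρ a w ∈ U.map (ρ b) := by
        rw [hab]
        exact ⟨w, w.2, rfl⟩
      obtain ⟨u, hu, h2⟩ := h1
      obtain ⟨h3, h4⟩ := hpair ⟨a, ha⟩ b ⟨u, hu⟩ w h2.symm
      rw [← h3, ← h4]
    refine ⟨jmH (Additive.ofMul ⟨a, ha⟩), ⟨_, rfl⟩, ?_, ?_⟩
    · apply LinearMap.ext
      intro w
      rw [Module.End.mul_apply, Module.End.one_apply]
      apply f₀.injective
      rw [hjm, hkm, s1]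
    · apply LinearMap.ext
      intro w
      rw [Module.End.mul_apply, Module.End.one_apply, hkm, hjm, s2]
  have hcKJ : Nat.card K = Nat.card J := by
    rw [hKc, hJc, hcB]
  haveI : Nontrivial (Module.End (ZMod p) W) := inferInstance
  haveI : Finite (Module.End (ZMod p) W) :=
    Finite.of_injective (fun z : W →ₗ[ZMod p] W => (z : W → W)) DFunLike.coe_injective
  have hJK := pair_surj hKJ hcKJ
  have h1K : (1 : Module.End (ZMod p) W) ∈ K := by
    obtain ⟨y, hy, h1, h2⟩ := hJK 1 h1J one_ne_zero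
    rw [one_mul] at h1
    exact h1 ▸ hy
  haveI : CharP (Module.End (ZMod p) W) p :=
    charP_of_injective_algebraMap (algebraMap (ZMod p) (Module.End (ZMod p) W)).injective p
  set n := Module.finrank (ZMod p) U with hn
  have hUcard : Nat.card U = p ^ n := by
    rw [Module.natCard_eq_pow_finrank (K := ZMod p) (V := U), Nat.card_zmod]
  have hn0 : n ≠ 0 := by
    intro h
    rw [h, pow_zero] at hUcard
    rw [hcU, hUcard] at hA1
    exact lt_irrefl _ hA1
  obtain ⟨ι, hι, hιJ, hιK, hιK'⟩ := exists_iota p h1J h1K hKJ hcKJ n hn0 (by rw [hJc, hcU, hUcard])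
  letI : Fintype (GaloisField p n) := Fintype.ofFinite _
  refine ⟨GaloisField p n, inferInstance, inferInstance, ?_, ?_⟩
  · rw [← Nat.card_eq_fintype_card, GaloisField.card p n hn0, hcU, hUcard]
  let u : W →ₗ[ZMod p] X := U.subtype ∘ₗ f₀.toLinearMap
  let w : W →ₗ[ZMod p] X := W.subtype
  have hu : ∀ s, u s = f₀ s := fun _ => rfl
  have hw : ∀ s, w s = s := fun _ => rfl
  have hactA : ∀ (a : A) (j : GaloisField p n), ι j = jmH (Additive.ofMul a) → ∀ s t,
      ρ a (u s + w t) = u (s + ι j t) + w t := by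
    intro a j hj s t
    rw [hj, map_add, map_add, hu, hw, hAf a a.2 _ (f₀ s).2]
    have h1 : u (jmH (Additive.ofMul a) t) = ρ a t - t := by
      rw [hu, hjm, hf]
    rw [h1]
    abel
  have hactB : ∀ (b : B) (j : GaloisField p n), ι j = kmH (Additive.ofMul b) → ∀ s t,
      ρ b (u s + w t) = u s + w (ι j s + t) := by
    intro b j hj s t
    rw [hj, map_add, map_add, hu, hw t, hBf b b.2 _ t.2]
    have h1 : w (kmH (Additive.ofMul b) s) = ρ b (f₀ s) - f₀ s := by
      rw [hw, hkm, hg]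
    rw [h1]
    abel
  refine coord (p := p) ι (by rw [GaloisField.card p n hn0, ← hcW, hUcard]) u w ?hΞ ρ hρ A B hAB
    ?hA ?hB ?hAs ?hBs
  case hΞ =>
    constructor
    · intro s s' h
      have h' : ((f₀ s.1 : U) : X) + s.2 = (f₀ s'.1 : U) + s'.2 := h
      obtain ⟨h1, h2⟩ := eq_of_add_eq hUW (f₀ s.1).2 (f₀ s'.1).2 s.2.2 s'.2.2 h'
      exact Prod.ext (f₀.injective (Subtype.ext h1)) (Subtype.ext h2)
    · intro x
      obtain ⟨u', hu', w', hw', rfl⟩ := exists_add_of_isCompl hUW x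
      refine ⟨(f₀.symm ⟨u', hu'⟩, ⟨w', hw'⟩), ?_⟩
      show ((f₀ (f₀.symm ⟨u', hu'⟩) : U) : X) + w' = u' + w'
      rw [LinearEquiv.apply_symm_apply]
  case hA =>
    intro a ha
    obtain ⟨j, hj⟩ := hιJ _ (⟨Additive.ofMul ⟨a, ha⟩, rfl⟩ : jmH (Additive.ofMul ⟨a, ha⟩) ∈ J)
    exact ⟨j, hactA ⟨a, ha⟩ j hj⟩
  case hB =>
    intro a ha
    obtain ⟨j, hj⟩ := hιK _ (⟨Additive.ofMul ⟨a, ha⟩, rfl⟩ : kmH (Additive.ofMul ⟨a, ha⟩) ∈ K)
    exact ⟨j, hactB ⟨a, ha⟩ j hj⟩
  case hAs =>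
    intro j
    obtain ⟨a, ha⟩ := hι j
    exact ⟨a.toMul, a.toMul.2, hactA a.toMul j ha.symm⟩
  case hBs =>
    intro j
    obtain ⟨a, ha⟩ := hιK' j
    exact ⟨a.toMul, a.toMul.2, hactB a.toMul j ha.symm⟩

end Spread

end Cfsg.Agent.Lib.JFS
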