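import Mathlib
import Cfsg.Agent.Lib.JFMc
import Cfsg.Agent.Lib.JFSb

set_option autoImplicit false
set_option linter.unusedSectionVars false
set_option linter.unusedVariables false

open Cfsg

namespace Cfsg.Agent.Lib.JFM

open Cfsg.Agent.Lib.FFMod Cfsg.Agent.Lib.PCore

section Setup4

variable {p : ℕ} [hp : Fact p.Prime] {Γ : Type*} [Group Γ] [Finite Γ] {E : Type*} [AddCommGroup E]
  [Module (ZMod p) E] [Finite E]

/-- The action on the quotient by an invariant submodule. -/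
def barRho (ρ : Γ →* Module.End (ZMod p) E) (C : Submodule (ZMod p) E) (hC : ∀ g, ∀ c ∈ C, ρ g c ∈ C) :
    Γ →* Module.End (ZMod p) (E ⧸ C) where
  toFun g := C.mapQ C (ρ g) (fun c hc => hC g c hc)
  map_one' := by
    apply Submodule.linearMap_qext
    apply LinearMap.ext
    intro v
    simp
  map_mul' := by
    intro g h
    apply Submodule.linearMap_qext
    apply LinearMap.ext
    intro v
    simp

theorem barRho_mk (ρ : Γ →* Module.End (ZMod p) E) (C : Submodule (ZMod p) E) (hC : ∀ g, ∀ c ∈ C, ρ g c ∈ C)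
    (g : Γ) (v : E) : barRho ρ C hC g (C.mkQ v) = C.mkQ (ρ g v) := rfl

theorem finrank_map_mk (C S : Submodule (ZMod p) E) (h : C ≤ S) :
    Module.finrank (ZMod p) (S.map C.mkQ) + Module.finrank (ZMod p) C = Module.finrank (ZMod p) S := by
  have h1 := LinearMap.finrank_range_add_finrank_ker (C.mkQ.domRestrict S)
  rw [LinearMap.range_domRestrict, LinearMap.ker_domRestrict, Submodule.ker_mkQ] at h1
  have h2 := (Submodule.comapSubtypeEquivOfLe h).finrank_eq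
  rw [h2] at h1
  exact h1

theorem map_map_bar (ρ : Γ →* Module.End (ZMod p) E) (C : Submodule (ZMod p) E)
    (hC : ∀ g, ∀ c ∈ C, ρ g c ∈ C) (S : Submodule (ZMod p) E) (g : Γ) :
    (S.map C.mkQ).map (barRho ρ C hC g) = (S.map (ρ g)).map C.mkQ := by
  ext v
  constructor
  · rintro ⟨_, ⟨w, hw, rfl⟩, rfl⟩
    exact ⟨ρ g w, ⟨w, hw, rfl⟩, rfl⟩
  · rintro ⟨_, ⟨w, hw, rfl⟩, rfl⟩
    exact ⟨C.mkQ w, ⟨w, hw, rfl⟩, rfl⟩

theorem module_main {ρ : Γ →* Module.End (ZMod p) E} {T : Sylow p Γ} {M A : Subgroup Γ} (S : Setup ρ T M A) :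
    fixS ρ A = comS ρ A ⊔ fixS ρ (⊤ : Subgroup Γ) ∧
    ∃ (F : Type) (_ : Field F) (_ : Fintype F), Fintype.card F = Nat.card A ∧
      ∃ (r : Γ →* Matrix.SpecialLinearGroup (Fin 2) F) (ψ : E →+ (Fin 2 → F)),
        Function.Bijective r ∧ Function.Surjective ψ ∧ (∀ v, ψ v = 0 ↔ v ∈ fixS ρ (⊤ : Subgroup Γ)) ∧
          ∀ g v, ψ (ρ g v) = (r g).1.mulVec (ψ v) := by
  classical
  refine ⟨S.U_eq, ?_⟩
  obtain ⟨e, he, hu, hn, hV, -, -⟩ := S.facts
  obtain ⟨x₀, hx₀⟩ := S.exists_not_mem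
  set U := fixS ρ A with hU
  set C := fixS ρ (⊤ : Subgroup Γ) with hC
  have hCinv : ∀ g, ∀ c ∈ C, ρ g c ∈ C := by
    intro g c hc
    rw [hc g trivial]
    exact hc
  haveI hfinQ : Finite (E ⧸ C) := Finite.of_surjective C.mkQ (Submodule.mkQ_surjective C)
  let ρb := barRho ρ C hCinv
  have hρb : ∀ g v, ρb g (C.mkQ v) = C.mkQ (ρ g v) := fun _ _ => rfl
  have hmk0 : ∀ v, C.mkQ v = 0 ↔ v ∈ C := fun v => Submodule.Quotient.mk_eq_zero C
  let Ub : Submodule (ZMod p) (E ⧸ C) := U.map C.mkQ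
  let Ux : Submodule (ZMod p) E := U.map (ρ x₀)
  let Wb : Submodule (ZMod p) (E ⧸ C) := Ux.map C.mkQ
  have hCUx : C ≤ Ux := S.C_le_map x₀
  have hCU : C ≤ U := S.C_le_U
  have hInter : U ⊓ Ux = C := S.inter hx₀
  have hdU : Module.finrank (ZMod p) Ub = e := by
    have h1 : Module.finrank (ZMod p) Ub + Module.finrank (ZMod p) C = Module.finrank (ZMod p) U :=
      finrank_map_mk C U hCU
    omega
  have hdW : Module.finrank (ZMod p) Wb = e := by
    have h1 : Module.finrank (ZMod p) Wb + Module.finrank (ZMod p) C = Module.finrank (ZMod p) Ux :=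
      finrank_map_mk C Ux hCUx
    have h2 : Module.finrank (ZMod p) Ux = Module.finrank (ZMod p) U := finrank_map_rho ρ U x₀
    omega
  have hcU : Nat.card A = Nat.card Ub := by
    rw [he, card_eq_pow Ub, hdU]
  have hcW : Nat.card Ub = Nat.card Wb := by
    rw [card_eq_pow Ub, card_eq_pow Wb, hdU, hdW]
  let B : Subgroup Γ := A.map (MulAut.conj x₀).toMonoidHom
  have hcB : Nat.card B = Nat.card A :=
    Subgroup.card_map_of_injective (MulAut.conj x₀).injective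
  have hquadB : ∀ b ∈ B, ∀ v, ρ b v - v ∈ Ux := by
    rintro _ ⟨a, ha, rfl⟩ v
    show ρ (x₀ * a * x₀⁻¹) v - v ∈ U.map (ρ x₀)
    rw [mem_map_rho, map_sub, rmul, rmul, rr]
    exact S.quad ha _
  have hfixB : ∀ b ∈ B, ∀ v ∈ Ux, ρ b v = v := by
    rintro _ ⟨a, ha, rfl⟩ v hv
    show ρ (x₀ * a * x₀⁻¹) v = v
    rw [rmul, rmul, ((mem_map_rho ρ).mp hv) a ha, rr']
  have hcompl : IsCompl Ub Wb := by
    constructor
    · rw [Submodule.disjoint_def]
      rintro _ ⟨u, hu', rfl⟩ ⟨w, hw, hw'⟩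
      have h1 : C.mkQ (w - u) = 0 := by
        rw [map_sub, sub_eq_zero]
        exact hw'
      rw [hmk0] at h1
      have h2 : u ∈ Ux := by
        have e1 : u = w - (w - u) := by abel
        rw [e1]
        exact Submodule.sub_mem _ hw (hCUx h1)
      have h3 : u ∈ U ⊓ Ux := ⟨hu', h2⟩
      rw [hInter] at h3
      exact (hmk0 u).mpr h3
    · rw [codisjoint_iff]
      have h1 : (U ⊔ Ux).map C.mkQ = Ub ⊔ Wb := Submodule.map_sup _ _ _
      rw [← h1]
      have h2 : U ⊔ Ux = ⊤ := hV x₀ hx₀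
      rw [h2, Submodule.map_top, Submodule.range_mkQ]
  have hinj : Function.Injective ρb := by
    rw [injective_iff_map_eq_one]
    intro g hg
    apply S.kernel_trivial
    intro v
    rw [← hmk0, map_sub, ← hρb, hg, Module.End.one_apply, sub_self]
  have hAB : A ⊔ B = ⊤ := S.H4 x₀ hx₀
  obtain ⟨F, hF, hFt, hcF, r, ψ, hr, hψ⟩ := Cfsg.Agent.Lib.JFS.spread ρb hinj Ub Wb hcompl A B hAB
    (by
      intro a ha v
      obtain ⟨w, rfl⟩ := Submodule.mkQ_surjective C v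
      rw [hρb, ← map_sub]
      exact ⟨_, S.quad ha w, rfl⟩)
    (by
      rintro a ha _ ⟨u, hu', rfl⟩
      rw [hρb, hu' a ha])
    (by
      intro a ha v
      obtain ⟨w, rfl⟩ := Submodule.mkQ_surjective C v
      rw [hρb, ← map_sub]
      exact ⟨_, hquadB a ha w, rfl⟩)
    (by
      rintro a ha _ ⟨u, hu', rfl⟩
      rw [hρb, hfixB a ha u hu'])
    (by
      rintro a ha ha1 _ ⟨w, hw, rfl⟩ hw0 h
      rw [hρb] at h
      have h1 : C.mkQ (ρ a w - w) = 0 := by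
        rw [map_sub, h, sub_self]
      rw [hmk0] at h1
      have hwU : w ∉ U := by
        intro h2
        have h3 : w ∈ U ⊓ Ux := ⟨h2, hw⟩
        rw [hInter] at h3
        exact hw0 ((hmk0 w).mpr h3)
      exact ha1 (S.reg ha hwU h1))
    hcU hcW hcB S.A_ne_bot
    (by
      rintro _ ⟨a₁, ha₁, rfl⟩ hb1
      have ha₁1 : a₁ ≠ 1 := by
        rintro rfl
        exact hb1 (by simp)
      obtain ⟨a, ha, hab⟩ := S.hinv hx₀ ha₁ ha₁1
      refine ⟨a, ha, ?_⟩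
      have e1 := map_map_bar ρ C hCinv U (x₀ * a₁ * x₀⁻¹)
      have e2 := map_map_bar ρ C hCinv Ux a
      have e3 : Ux.map (ρ a) = U.map (ρ (a * x₀)) := (map_rho_mul ρ U a x₀).symm
      show Ub.map (ρb (x₀ * a₁ * x₀⁻¹)) = Wb.map (ρb a)
      have e4 : Ub.map (ρb (x₀ * a₁ * x₀⁻¹)) = (U.map (ρ (x₀ * a₁ * x₀⁻¹))).map C.mkQ := e1
      have e5 : Wb.map (ρb a) = (Ux.map (ρ a)).map C.mkQ := e2
      rw [e4, e5, e3, hab])
  refine ⟨F, hF, hFt, hcF, r, (ψ : (E ⧸ C) →+ (Fin 2 → F)).comp C.mkQ.toAddMonoidHom, hr, ?_, ?_, ?_⟩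
  · intro v
    obtain ⟨x, rfl⟩ := ψ.surjective v
    obtain ⟨w, rfl⟩ := Submodule.mkQ_surjective C x
    exact ⟨w, rfl⟩
  · intro v
    rw [← hmk0]
    show ψ (C.mkQ v) = 0 ↔ _
    exact map_eq_zero_iff ψ ψ.injective
  · intro g v
    show ψ (C.mkQ (ρ g v)) = (r g).1.mulVec (ψ (C.mkQ v))
    rw [← hρb]
    exact hψ g (C.mkQ v)

end Setup4

end Cfsg.Agent.Lib.JFM
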