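import Mathlib
import Cfsg.Prelude.Def_SporadicB
import Cfsg.Prelude.Def_TwoFusion
import Cfsg.Agent.Lib.NormalKlein2

/-!
# Centralizer of a two-central involution of shape `2 × A_m`: general facts
-/

set_option autoImplicit false
set_option linter.unusedVariables false
set_option linter.unusedSectionVars false

namespace Cfsg.Agent.Lib.JZA

open Subgroup

variable {G : Type*} [Group G]

section Dp

variable {J : G} {T : Subgroup G}

theorem sq_J (hJ : orderOf J = 2) : J ^ 2 = 1 := by rw [← hJ]; exact pow_orderOf_eq_one J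

theorem mul_J (hJ : orderOf J = 2) : J * J = 1 := by rw [← pow_two]; exact sq_J hJ

theorem inv_J (hJ : orderOf J = 2) : J⁻¹ = J := inv_eq_of_mul_eq_one_left (mul_J hJ)

theorem ne_one (hJ : orderOf J = 2) : J ≠ 1 := by rintro rfl; simp at hJ

theorem comm_J (hd : Cfsg.IsInternalDirectProduct (zpowers J) T (centralizer ({J} : Set G)))
    {b : G} (hb : b ∈ T) : Commute J b := hd.2.2.1 J (mem_zpowers J) b hb

theorem comm_J' (hJ : orderOf J = 2)
    (hd : Cfsg.IsInternalDirectProduct (zpowers J) T (centralizer ({J} : Set G)))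
    {b : G} (hb : J * b ∈ T) : Commute J b := by
  have h1 := comm_J hd hb
  have h2 : b = J * (J * b) := by rw [← mul_assoc, mul_J hJ, one_mul]
  rw [h2]
  exact (Commute.refl J).mul_right h1

theorem J_not_mem (hJ : orderOf J = 2)
    (hd : Cfsg.IsInternalDirectProduct (zpowers J) T (centralizer ({J} : Set G))) : J ∉ T := fun h => by
  have h1 : J ∈ zpowers J ⊓ T := ⟨mem_zpowers J, h⟩
  rw [hd.2.2.2.1, mem_bot] at h1
  exact ne_one hJ h1

/-- `T ∪ J T` as a subgroup. -/
def TJ (hJ : orderOf J = 2)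
    (hd : Cfsg.IsInternalDirectProduct (zpowers J) T (centralizer ({J} : Set G))) : Subgroup G where
  carrier := {c | c ∈ T ∨ J * c ∈ T}
  one_mem' := Or.inl T.one_mem
  mul_mem' := by
    intro a b ha hb
    have hJJ := mul_J hJ
    rcases ha with ha | ha <;> rcases hb with hb | hb
    · exact Or.inl (T.mul_mem ha hb)
    · right
      have h1 : J * (a * b) = a * (J * b) := by
        rw [← mul_assoc, (comm_J hd ha).eq, mul_assoc]
      rw [h1]
      exact T.mul_mem ha hb
    · right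
      rw [← mul_assoc]
      exact T.mul_mem ha hb
    · left
      have h1 : a * b = (J * a) * (J * b) := by
        have h2 := (comm_J' hJ hd ha).eq
        calc a * b = (J * J) * (a * b) := by rw [hJJ, one_mul]
          _ = J * (J * a) * b := by simp only [mul_assoc]
          _ = J * (a * J) * b := by rw [h2]
          _ = (J * a) * (J * b) := by simp only [mul_assoc]
      rw [h1]
      exact T.mul_mem ha hb
  inv_mem' := by
    intro a ha
    rcases ha with ha | ha
    · exact Or.inl (T.inv_mem ha)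
    · right
      have h1 := T.inv_mem ha
      have h2 : (J * a)⁻¹ = J * a⁻¹ := by
        rw [mul_inv_rev, inv_J hJ]
        exact ((comm_J' hJ hd ha).inv_right).eq.symm
      rwa [h2] at h1

theorem mem_cent_iff (hJ : orderOf J = 2)
    (hd : Cfsg.IsInternalDirectProduct (zpowers J) T (centralizer ({J} : Set G))) {c : G} :
    c ∈ centralizer ({J} : Set G) ↔ c ∈ T ∨ J * c ∈ T := by
  constructor
  · intro hc
    rw [← hd.2.2.2.2] at hc
    have hle : zpowers J ⊔ T ≤ TJ hJ hd := by
      refine sup_le ?_ ?_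
      · rw [zpowers_le]
        refine Or.inr ?_
        rw [mul_J hJ]
        exact T.one_mem
      · exact fun x hx => Or.inl hx
    exact hle hc
  · rintro (h | h)
    · exact hd.2.1 h
    · have h1 := hd.2.1 h
      have h2 : J ∈ centralizer ({J} : Set G) := hd.1 (mem_zpowers J)
      have h3 : c = J * (J * c) := by rw [← mul_assoc, mul_J hJ, one_mul]
      rw [h3]
      exact mul_mem h2 h1

theorem sq_mem (hJ : orderOf J = 2)
    (hd : Cfsg.IsInternalDirectProduct (zpowers J) T (centralizer ({J} : Set G))) {c : G}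
    (hc : c ∈ centralizer ({J} : Set G)) : c ^ 2 ∈ T := by
  rcases (mem_cent_iff hJ hd).1 hc with h | h
  · exact T.pow_mem h 2
  · have h1 := T.pow_mem h 2
    have h2 : (J * c) ^ 2 = c ^ 2 := by
      rw [(comm_J' hJ hd h).mul_pow, sq_J hJ, one_mul]
    rwa [h2] at h1

variable [Finite G]

/-- The Sylow `2`-subgroup contains `J` centrally: `P ⊓ T` has index twice an odd number. -/
theorem index_inf (hJ : orderOf J = 2)
    (hd : Cfsg.IsInternalDirectProduct (zpowers J) T (centralizer ({J} : Set G)))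
    (P : Sylow 2 G) (hJP : J ∈ P) (hc : ∀ x ∈ P, x * J = J * x) :
    ∃ k, ((P : Subgroup G) ⊓ T).index = 2 * (2 * k + 1) := by
  haveI : Fact (Nat.Prime 2) := ⟨Nat.prime_two⟩
  have hP : (P : Subgroup G) ≤ centralizer ({J} : Set G) := fun x hx => by
    rw [mem_centralizer_singleton_iff]
    exact hc x hx
  have h1 : ((P : Subgroup G) ⊓ T).relIndex (P : Subgroup G) = 2 := by
    rw [relIndex]
    rw [Subgroup.index_eq_two_iff]
    refine ⟨⟨J, hJP⟩, ?_⟩
    rintro ⟨b, hb⟩
    simp only [Subgroup.mem_subgroupOf, Subgroup.coe_mul, Subgroup.mem_inf]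
    have hbJ : Commute J b := (hc b hb).symm
    rcases (mem_cent_iff hJ hd).1 (hP hb) with h | h
    · refine Or.inr ⟨⟨hb, h⟩, ?_⟩
      rintro ⟨-, h2⟩
      apply J_not_mem hJ hd
      have h3 := T.mul_mem h2 (T.inv_mem h)
      rw [hbJ.eq.symm] at h3
      simpa using h3
    · refine Or.inl ⟨⟨(P : Subgroup G).mul_mem hb hJP, ?_⟩, ?_⟩
      · rw [← hbJ.eq]
        exact h
      · rintro ⟨-, h2⟩
        apply J_not_mem hJ hd
        have h3 := T.mul_mem h (T.inv_mem h2)
        simpa using h3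
  have h2 := Subgroup.relIndex_mul_index (inf_le_left : (P : Subgroup G) ⊓ T ≤ P)
  rw [h1] at h2
  have h3 : ¬ 2 ∣ (P : Subgroup G).index := P.not_dvd_index
  obtain ⟨k, hk⟩ := Nat.odd_iff.2 (Nat.mod_two_ne_zero.1 (fun h => h3 (Nat.dvd_of_mod_eq_zero h)))
  exact ⟨k, by rw [← h2, hk]⟩

/-- Transfer: `J` has a conjugate in `T`. -/
theorem exists_conj (h2 : ∀ N : Subgroup G, N.Normal → N.index ≠ 2) (hJ : orderOf J = 2)
    (hd : Cfsg.IsInternalDirectProduct (zpowers J) T (centralizer ({J} : Set G)))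
    (P : Sylow 2 G) (hJP : J ∈ P) (hc : ∀ x ∈ P, x * J = J * x) :
    ∃ g : G, g⁻¹ * J * g ∈ (P : Subgroup G) ⊓ T := by
  obtain ⟨k, hk⟩ := index_inf hJ hd P hJP hc
  have hno : ∀ H : Subgroup G, H.index ≠ 2 := fun H hH => h2 H (Subgroup.normal_of_index_eq_two hH) hH
  exact Cfsg.Agent.Lib.NormalKlein2.exists_conj_mem_of_no_index_two hno _ k hk J (sq_J hJ)

/-- Cases `m ≤ 3`: no involutions in `T`. -/
theorem no_inv_case (h2 : ∀ N : Subgroup G, N.Normal → N.index ≠ 2) (hJ : Cfsg.IsTwoCentralInvolution J)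
    (hd : Cfsg.IsInternalDirectProduct (zpowers J) T (centralizer ({J} : Set G)))
    (hT : ∀ x ∈ T, x ^ 2 = 1 → x = 1) : False := by
  obtain ⟨hJ2, P, hJP, hc⟩ := hJ
  obtain ⟨g, hg⟩ := exists_conj h2 hJ2 hd P hJP hc
  have h1 : (g⁻¹ * J * g) ^ 2 = 1 := by
    have : (g⁻¹ * J * g) ^ 2 = g⁻¹ * J ^ 2 * g := by
      simp [pow_two, mul_assoc]
    rw [this, sq_J hJ2]; simp
  have h3 := hT _ hg.2 h1
  apply ne_one hJ2
  have h4 : J = g * (g⁻¹ * J * g) * g⁻¹ := by group
  rw [h4, h3]; simp

/-- Cases `m ≥ 6` reduction. -/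
theorem big_case (h2 : ∀ N : Subgroup G, N.Normal → N.index ≠ 2) (hJ : Cfsg.IsTwoCentralInvolution J)
    (hd : Cfsg.IsInternalDirectProduct (zpowers J) T (centralizer ({J} : Set G)))
    {A : Type*} [Group A] (e : T ≃* A)
    (hA : ∀ (x : A), x ^ 2 = 1 → ∀ Q : Subgroup A, (∀ z : A, z * x = x * z → z ^ 2 ∈ Q) → x ∈ Q) : False := by
  obtain ⟨hJ2, P, hJP, hc⟩ := hJ
  obtain ⟨g, hg⟩ := exists_conj h2 hJ2 hd P hJP hc
  set x : G := g⁻¹ * J * g with hx
  have hxT : x ∈ T := hg.2
  have hx2 : x ^ 2 = 1 := by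
    have : x ^ 2 = g⁻¹ * J ^ 2 * g := by
      simp [hx, pow_two, mul_assoc]
    rw [this, sq_J hJ2]; simp
  let Q : Subgroup A := (T.comap (MulAut.conj g).toMonoidHom).comap (T.subtype.comp e.symm.toMonoidHom)
  have h1 : e ⟨x, hxT⟩ ∈ Q := by
    refine hA _ ?_ Q ?_
    · rw [← map_pow]
      have : (⟨x, hxT⟩ : T) ^ 2 = 1 := Subtype.ext hx2
      rw [this, map_one]
    · intro z hz
      have hz' : ((e.symm z : T) : G) * x = x * (e.symm z : T) := by
        have h3 := congrArg e.symm hz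
        rw [map_mul, map_mul, e.symm_apply_apply] at h3
        exact congrArg Subtype.val h3
      change (MulAut.conj g) ((T.subtype.comp e.symm.toMonoidHom) (z ^ 2)) ∈ T
      have h4 : g * ((e.symm z : T) : G) * g⁻¹ ∈ centralizer ({J} : Set G) := by
        rw [mem_centralizer_singleton_iff]
        have h5 : J = g * x * g⁻¹ := by rw [hx]; group
        rw [h5]
        calc g * ((e.symm z : T) : G) * g⁻¹ * (g * x * g⁻¹) = g * (((e.symm z : T) : G) * x) * g⁻¹ := by group
          _ = g * (x * ((e.symm z : T) : G)) * g⁻¹ := by rw [hz']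
          _ = _ := by group
      have h6 := sq_mem hJ2 hd h4
      have h7 : (MulAut.conj g) ((T.subtype.comp e.symm.toMonoidHom) (z ^ 2)) = (g * ((e.symm z : T) : G) * g⁻¹) ^ 2 := by
        simp [pow_two, mul_assoc]
      rw [h7]
      exact h6
  have h2' : (MulAut.conj g) ((T.subtype.comp e.symm.toMonoidHom) (e ⟨x, hxT⟩)) ∈ T := h1
  have h3 : (MulAut.conj g) ((T.subtype.comp e.symm.toMonoidHom) (e ⟨x, hxT⟩)) = J := by
    simp [hx, mul_assoc]
  rw [h3] at h2'
  exact J_not_mem hJ2 hd h2'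

end Dp

end Cfsg.Agent.Lib.JZA
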