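import Mathlib

/-!
# Even involutions of alternating groups are products of squares commuting with them
-/

set_option autoImplicit false
set_option linter.all false

namespace Cfsg.Agent.Lib.JZAlt

open Equiv Equiv.Perm

section Gen

variable {α : Type*} [DecidableEq α]

theorem conj_swap (X : Perm α) (p q : α) : X * swap p q = swap (X p) (X q) * X := by
  rw [Equiv.swap_apply_apply]; group

theorem swap_disj_comm {a b c d : α} (hac : a ≠ c) (had : a ≠ d) (hbc : b ≠ c) (hbd : b ≠ d) :
    swap a b * swap c d = swap c d * swap a b := by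
  refine Equiv.Perm.Disjoint.commute ?_
  intro i
  by_cases h1 : i = a
  · subst h1; right; exact swap_apply_of_ne_of_ne hac had
  by_cases h2 : i = b
  · subst h2; right; exact swap_apply_of_ne_of_ne hbc hbd
  · left; exact swap_apply_of_ne_of_ne h1 h2

theorem y_sq {a b c d : α} (hab : a ≠ b) (hac : a ≠ c) (had : a ≠ d) (hbc : b ≠ c) (hbd : b ≠ d) (hcd : c ≠ d) :
    (swap a c * swap b d * swap a b) ^ 2 = swap a b * swap c d := by
  ext i
  simp only [pow_two, Perm.mul_apply, swap_apply_def]
  by_cases h1 : i = a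
  · subst h1; simp [*, Ne.symm, hab.symm, hac.symm, had.symm, hbc.symm, hbd.symm, hcd.symm]
  by_cases h2 : i = b
  · subst h2; simp [*, Ne.symm, hab.symm, hac.symm, had.symm, hbc.symm, hbd.symm, hcd.symm]
  by_cases h3 : i = c
  · subst h3; simp [*, Ne.symm, hab.symm, hac.symm, had.symm, hbc.symm, hbd.symm, hcd.symm]
  by_cases h4 : i = d
  · subst h4; simp [*, Ne.symm, hab.symm, hac.symm, had.symm, hbc.symm, hbd.symm, hcd.symm]
  simp [*]

theorem comm_y (X : Perm α) (hX : ∀ i, X (X i) = i) {a b c d : α} (ha : X a = b) (hc : X c = d)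
    (hab : a ≠ b) (hac : a ≠ c) (had : a ≠ d) (hbc : b ≠ c) (hbd : b ≠ d) (hcd : c ≠ d) :
    (swap a c * swap b d * swap a b) * X = X * (swap a c * swap b d * swap a b) := by
  have hb : X b = a := by rw [← ha, hX]
  have hd : X d = c := by rw [← hc, hX]
  have h1 := conj_swap X a c
  have h2 := conj_swap X b d
  have h3 := conj_swap X a b
  rw [ha, hc] at h1
  rw [hb, hd] at h2
  rw [ha, hb, swap_comm b a] at h3
  have hcm : swap a c * swap b d = swap b d * swap a c := swap_disj_comm hab had hbc.symm hcd
  calc (swap a c * swap b d * swap a b) * X = swap a c * swap b d * (swap a b * X) := by group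
    _ = swap a c * swap b d * (X * swap a b) := by rw [h3]
    _ = swap b d * swap a c * X * swap a b := by
        rw [hcm]; group
    _ = swap b d * (swap a c * X) * swap a b := by group
    _ = swap b d * (X * swap b d) * swap a b := by rw [h2]
    _ = (swap b d * X) * swap b d * swap a b := by group
    _ = (X * swap a c) * swap b d * swap a b := by rw [h1]
    _ = X * (swap a c * swap b d * swap a b) := by group

end Gen

variable {m : ℕ}

/-- The key step: a double transposition of `x` lies in `Q`. -/
theorem double_mem (hm : 6 ≤ m) (X : Perm (Fin m)) (hX : ∀ i, X (X i) = i) (Q' : Subgroup (Perm (Fin m)))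
    (hQ' : ∀ z : Perm (Fin m), sign z = 1 → z * X = X * z → z ^ 2 ∈ Q') {a b c d : Fin m} (ha : X a = b) (hc : X c = d)
    (hab : a ≠ b) (hac : a ≠ c) (had : a ≠ d) (hbc : b ≠ c) (hbd : b ≠ d) (hcd : c ≠ d) :
    swap a b * swap c d ∈ Q' := by
  classical
  have hb : X b = a := by rw [← ha, hX]
  have hd : X d = c := by rw [← hc, hX]
  -- two points outside
  obtain ⟨p, q, hpq, hp, hq⟩ : ∃ p q : Fin m, p ≠ q ∧ (p ≠ a ∧ p ≠ b ∧ p ≠ c ∧ p ≠ d) ∧ (q ≠ a ∧ q ≠ b ∧ q ≠ c ∧ q ≠ d) := by
    have h1 : ({a, b, c, d} : Finset (Fin m)).card ≤ 4 := Finset.card_le_four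
    have h2 : (({a, b, c, d} : Finset (Fin m))ᶜ).card ≥ 2 := by
      rw [Finset.card_compl, Fintype.card_fin]; omega
    obtain ⟨p, hp, q, hq, hpq⟩ := Finset.one_lt_card.mp h2
    refine ⟨p, q, hpq, ?_, ?_⟩
    · simpa [Finset.mem_compl] using hp
    · simpa [Finset.mem_compl] using hq
  have hout : ∀ r, (r ≠ a ∧ r ≠ b ∧ r ≠ c ∧ r ≠ d) → (X r ≠ a ∧ X r ≠ b ∧ X r ≠ c ∧ X r ≠ d) := by
    rintro r ⟨h1, h2, h3, h4⟩
    refine ⟨fun h => h2 ?_, fun h => h1 ?_, fun h => h4 ?_, fun h => h3 ?_⟩
    · have := hX r; rw [h, ha] at this; exact this.symm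
    · have := hX r; rw [h, hb] at this; exact this.symm
    · have := hX r; rw [h, hc] at this; exact this.symm
    · have := hX r; rw [h, hd] at this; exact this.symm
  -- the odd commuting transposition `w`
  obtain ⟨p', q', hpq', hp', hq', hw⟩ : ∃ p' q' : Fin m, p' ≠ q' ∧ (p' ≠ a ∧ p' ≠ b ∧ p' ≠ c ∧ p' ≠ d) ∧
      (q' ≠ a ∧ q' ≠ b ∧ q' ≠ c ∧ q' ≠ d) ∧ swap p' q' * X = X * swap p' q' := by
    by_cases h1 : X p = p
    · by_cases h2 : X q = q
      · refine ⟨p, q, hpq, hp, hq, ?_⟩
        rw [conj_swap, h1, h2]
      · refine ⟨q, X q, fun h => h2 h.symm, hq, hout q hq, ?_⟩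
        rw [conj_swap, hX, swap_comm]
    · refine ⟨p, X p, fun h => h1 h.symm, hp, hout p hp, ?_⟩
      rw [conj_swap, hX, swap_comm]
  set y := swap a c * swap b d * swap a b with hy
  have hyX : y * X = X * y := comm_y X hX ha hc hab hac had hbc hbd hcd
  have hsy : sign y = -1 := by
    rw [hy, map_mul, map_mul, sign_swap hac, sign_swap hbd, sign_swap hab]; rfl
  have hyw : y * swap p' q' = swap p' q' * y := by
    have e1 : swap a c * swap p' q' = swap p' q' * swap a c :=
      swap_disj_comm hp'.1.symm hq'.1.symm hp'.2.2.1.symm hq'.2.2.1.symm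
    have e2 : swap b d * swap p' q' = swap p' q' * swap b d :=
      swap_disj_comm hp'.2.1.symm hq'.2.1.symm hp'.2.2.2.symm hq'.2.2.2.symm
    have e3 : swap a b * swap p' q' = swap p' q' * swap a b :=
      swap_disj_comm hp'.1.symm hq'.1.symm hp'.2.1.symm hq'.2.1.symm
    rw [hy]
    calc swap a c * swap b d * swap a b * swap p' q' = swap a c * swap b d * (swap a b * swap p' q') := by group
      _ = swap a c * swap b d * (swap p' q' * swap a b) := by rw [e3]
      _ = swap a c * (swap b d * swap p' q') * swap a b := by group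
      _ = swap a c * (swap p' q' * swap b d) * swap a b := by rw [e2]
      _ = (swap a c * swap p' q') * swap b d * swap a b := by group
      _ = (swap p' q' * swap a c) * swap b d * swap a b := by rw [e1]
      _ = swap p' q' * (swap a c * swap b d * swap a b) := by group
  have hz := hQ' (y * swap p' q') (by rw [map_mul, hsy, sign_swap hpq']; rfl) (by
    calc y * swap p' q' * X = y * (swap p' q' * X) := by group
      _ = y * (X * swap p' q') := by rw [hw]
      _ = (y * X) * swap p' q' := by group
      _ = (X * y) * swap p' q' := by rw [hyX]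
      _ = X * (y * swap p' q') := by group)
  have hsq : (y * swap p' q') ^ 2 = swap a b * swap c d := by
    rw [pow_two]
    calc y * swap p' q' * (y * swap p' q') = y * (swap p' q' * y) * swap p' q' := by group
      _ = y * (y * swap p' q') * swap p' q' := by rw [hyw]
      _ = y ^ 2 * (swap p' q' * swap p' q') := by rw [pow_two]; group
      _ = swap a b * swap c d := by rw [swap_mul_self, mul_one, hy, y_sq hab hac had hbc hbd hcd]
  rwa [hsq] at hz

/-- Even "subproducts" of `X` lie in `Q'`. -/
theorem sub_mem (hm : 6 ≤ m) (X : Perm (Fin m)) (hX : ∀ i, X (X i) = i) (Q' : Subgroup (Perm (Fin m)))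
    (hQ' : ∀ z : Perm (Fin m), sign z = 1 → z * X = X * z → z ^ 2 ∈ Q') :
    ∀ (n : ℕ) (r : Perm (Fin m)), r.support.card = n → sign r = 1 → (∀ i, r i = i ∨ r i = X i) → r ∈ Q' := by
  classical
  intro n
  induction n using Nat.strong_induction_on with
  | _ n ih =>
    intro r hn hs hr
    by_cases h1 : r = 1
    · rw [h1]; exact one_mem _
    obtain ⟨a, ha⟩ : ∃ a, r a ≠ a := by
      by_contra hcon
      push Not at hcon
      exact h1 (Equiv.ext hcon)
    -- partner facts
    have hpart : ∀ u, r u ≠ u → r u = X u ∧ r (X u) = u ∧ X u ≠ u := by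
      intro u hu
      have e1 : r u = X u := (hr u).resolve_left hu
      refine ⟨e1, ?_, fun h => hu (by rw [e1, h])⟩
      rcases hr (X u) with h | h
      · exact absurd (r.injective (h.trans e1.symm)) (fun h' => hu (by rw [e1, h']))
      · rw [h, hX]
    obtain ⟨e1, e2, e3⟩ := hpart a ha
    set b := X a with hb
    -- another moved point
    obtain ⟨c, hc, hca, hcb⟩ : ∃ c, r c ≠ c ∧ c ≠ a ∧ c ≠ b := by
      by_contra hcon
      push Not at hcon
      have hrs : r = swap a b := by
        ext i
        by_cases hia : i = a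
        · subst hia; rw [e1, swap_apply_left]
        by_cases hib : i = b
        · rw [hib, e2, swap_apply_right]
        · rw [swap_apply_of_ne_of_ne hia hib]
          by_contra h
          exact hib (hcon i (fun h' => h (by rw [h'])) hia)
      rw [hrs, sign_swap e3.symm] at hs
      exact absurd hs (by decide)
    obtain ⟨f1, f2, f3⟩ := hpart c hc
    set d := X c with hd
    have hda : d ≠ a := fun h => hcb (r.injective (by rw [f1, e2]; exact h))
    have hdb : d ≠ b := fun h => hca (r.injective (by rw [f1, e1]; exact h))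
    have hab : a ≠ b := e3.symm
    have hcd : c ≠ d := f3.symm
    set e := swap a b * swap c d with he
    have heQ : e ∈ Q' := double_mem hm X hX Q' hQ' rfl rfl hab hca.symm hda.symm hcb.symm hdb.symm hcd
    have hse : sign e = 1 := by
      rw [he, map_mul, sign_swap hab, sign_swap hcd]; rfl
    have hcm : swap a b * swap c d = swap c d * swap a b := swap_disj_comm hca.symm hda.symm hcb.symm hdb.symm
    have hee : e * e = 1 := by
      rw [he]
      calc swap a b * swap c d * (swap a b * swap c d) = swap a b * (swap c d * swap a b) * swap c d := by group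
        _ = swap a b * (swap a b * swap c d) * swap c d := by rw [hcm]
        _ = (swap a b * swap a b) * (swap c d * swap c d) := by group
        _ = 1 := by rw [swap_mul_self, swap_mul_self, one_mul]
    -- values of `e`
    have eA : e a = b := by
      rw [he, Perm.mul_apply, swap_apply_of_ne_of_ne hca.symm hda.symm, swap_apply_left]
    have eB : e b = a := by
      rw [he, Perm.mul_apply, swap_apply_of_ne_of_ne hcb.symm hdb.symm, swap_apply_right]
    have eC : e c = d := by
      rw [he, Perm.mul_apply, swap_apply_left, swap_apply_of_ne_of_ne hda hdb]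
    have eD : e d = c := by
      rw [he, Perm.mul_apply, swap_apply_right, swap_apply_of_ne_of_ne hca hcb]
    have eO : ∀ i, i ≠ a → i ≠ b → i ≠ c → i ≠ d → e i = i := by
      intro i h1 h2 h3 h4
      rw [he, Perm.mul_apply, swap_apply_of_ne_of_ne h3 h4, swap_apply_of_ne_of_ne h1 h2]
    set r' := r * e with hr'
    have r'A : r' a = a := by rw [hr', Perm.mul_apply, eA, e2]
    have r'B : r' b = b := by rw [hr', Perm.mul_apply, eB, e1]
    have r'C : r' c = c := by rw [hr', Perm.mul_apply, eC, f2]
    have r'D : r' d = d := by rw [hr', Perm.mul_apply, eD, f1]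
    have r'O : ∀ i, i ≠ a → i ≠ b → i ≠ c → i ≠ d → r' i = r i := by
      intro i h1 h2 h3 h4
      rw [hr', Perm.mul_apply, eO i h1 h2 h3 h4]
    have hsub : r'.support ⊂ r.support := by
      refine (Finset.ssubset_iff_of_subset ?_).mpr ⟨a, ?_, ?_⟩
      · intro i hi
        rw [Perm.mem_support] at hi ⊢
        by_cases h1 : i = a
        · rw [h1]; exact ha
        by_cases h2 : i = b
        · rw [h2]; intro h; rw [e2] at h; exact hab h
        by_cases h3 : i = c
        · rw [h3]; exact hc
        by_cases h4 : i = d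
        · exact absurd (h4 ▸ r'D) hi
        · rwa [r'O i h1 h2 h3 h4] at hi
      · rw [Perm.mem_support]; exact ha
      · rw [Perm.mem_support]; exact fun h => h r'A
    have hlt := Finset.card_lt_card hsub
    have hr'Q : r' ∈ Q' := by
      refine ih _ (hn ▸ hlt) r' rfl ?_ ?_
      · rw [hr', map_mul, hs, hse, one_mul]
      · intro i
        by_cases h1 : i = a
        · left; rw [h1, r'A]
        by_cases h2 : i = b
        · left; rw [h2, r'B]
        by_cases h3 : i = c
        · left; rw [h3, r'C]
        by_cases h4 : i = d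
        · left; rw [h4, r'D]
        · rw [r'O i h1 h2 h3 h4]; exact hr i
    have : r = r' * e := by
      rw [hr', mul_assoc, hee, mul_one]
    rw [this]
    exact mul_mem hr'Q heQ

theorem sq_closed (hm : 6 ≤ m) (x : alternatingGroup (Fin m)) (hx : x ^ 2 = 1) (Q : Subgroup (alternatingGroup (Fin m)))
    (hQ : ∀ z : alternatingGroup (Fin m), z * x = x * z → z ^ 2 ∈ Q) : x ∈ Q := by
  classical
  set X : Perm (Fin m) := (x : Perm (Fin m)) with hXdef
  have hX2 : X * X = 1 := by
    have := congrArg (fun t : alternatingGroup (Fin m) => (t : Perm (Fin m))) hx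
    simpa [pow_two] using this
  have hX : ∀ i, X (X i) = i := fun i => by
    have := congrArg (fun s : Perm (Fin m) => s i) hX2
    simpa [Perm.mul_apply] using this
  set Q' : Subgroup (Perm (Fin m)) := Q.map (alternatingGroup (Fin m)).subtype with hQ'def
  have hQ' : ∀ z : Perm (Fin m), sign z = 1 → z * X = X * z → z ^ 2 ∈ Q' := by
    intro z hz hzX
    have hmem : z ∈ alternatingGroup (Fin m) := Equiv.Perm.mem_alternatingGroup.mpr hz
    refine ⟨(⟨z, hmem⟩ : alternatingGroup (Fin m)) ^ 2, hQ _ (Subtype.ext hzX), ?_⟩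
    simp
  have hsX : sign X = 1 := Equiv.Perm.mem_alternatingGroup.mp x.2
  have hmain := sub_mem hm X hX Q' hQ' _ X rfl hsX (fun i => Or.inr rfl)
  obtain ⟨y, hy, hyx⟩ := hmain
  have : y = x := Subtype.ext hyx
  rwa [← this]

end Cfsg.Agent.Lib.JZAlt
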