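import Mathlib
import Cfsg.Agent.Lib.JUG4
import Cfsg.Agent.Lib.SmallGroups2

/-!
# Groups with elementary abelian Sylow `2`-subgroups of order `8` with a transitive normalizer,
involution centralizers of order `24`: the degree is `9`.
-/

set_option autoImplicit false
set_option linter.unusedVariables false
set_option linter.unusedSectionVars false
set_option linter.style.haveILetI false

namespace Cfsg.Agent.Lib.JZB

open Subgroup
open Cfsg.Agent.Lib.SmallGroups2 (mem_smul_sylow_iff sylow_eq_of_le_normalizer card_normalizer_mul_card_sylow exists_sylow_mem_of_orderOf)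

variable {G : Type*} [Group G] [Finite G]

/-- Normalizer of a Sylow `2`-subgroup. -/
abbrev NN (A : Sylow 2 G) : Subgroup G := normalizer ((A : Subgroup G) : Set G)

/-- The local hypotheses. -/
structure E8Str (G : Type*) [Group G] [Finite G] : Prop where
  card8 : ∀ A : Sylow 2 G, Nat.card (A : Subgroup G) = 8
  elem : ∀ A : Sylow 2 G, ∀ x ∈ (A : Subgroup G), x ^ 2 = 1
  cent_le : ∀ A : Sylow 2 G, ∀ u ∈ (A : Subgroup G), u ≠ 1 → centralizer ({u} : Set G) ≤ NN A
  card_cent : ∀ A : Sylow 2 G, ∀ u ∈ (A : Subgroup G), u ≠ 1 → Nat.card (centralizer ({u} : Set G)) = 24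
  trans : ∀ A : Sylow 2 G, ∀ u ∈ (A : Subgroup G), ∀ v ∈ (A : Subgroup G), u ≠ 1 → v ≠ 1 →
    ∃ n ∈ NN A, n * u * n⁻¹ = v
  self_cent : ∀ A : Sylow 2 G, ∀ g : G, (∀ x ∈ (A : Subgroup G), g * x = x * g) → g ∈ (A : Subgroup G)
  ne_top : ∀ A : Sylow 2 G, NN A ≠ ⊤

theorem inv_eq_of_sq {x : G} (hx : x ^ 2 = 1) : x⁻¹ = x :=
  inv_eq_of_mul_eq_one_left (by rw [← pow_two]; exact hx)

theorem comm_of_elem {A : Subgroup G} (h : ∀ x ∈ A, x ^ 2 = 1) {a b : G} (ha : a ∈ A) (hb : b ∈ A) :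
    a * b = b * a := by
  have h1 := inv_eq_of_sq (h _ (A.mul_mem ha hb))
  rw [mul_inv_rev, inv_eq_of_sq (h a ha), inv_eq_of_sq (h b hb)] at h1
  exact h1.symm

theorem conj_pow' (g a : G) (n : ℕ) : (g * a * g⁻¹) ^ n = g * a ^ n * g⁻¹ := by
  exact conj_pow

theorem mem_of_mem_norm {A : Sylow 2 G} {x : G} (hx : x ^ 2 = 1) (hN : x ∈ NN A) : x ∈ (A : Subgroup G) := by
  have hp : IsPGroup 2 (zpowers x) := by
    rw [IsPGroup.iff_card, Nat.card_zpowers]
    rcases (Nat.dvd_prime Nat.prime_two).1 (orderOf_dvd_of_pow_eq_one hx) with h | h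
    · exact ⟨0, by simpa using h⟩
    · exact ⟨1, by simpa using h⟩
  have hle : zpowers x ≤ NN A := zpowers_le.2 hN
  have h1 := hp.to_sup_of_normal_right' A.isPGroup' hle
  have h2 := A.is_maximal' h1 le_sup_right
  rw [← h2]
  exact mem_sup_left (mem_zpowers x)

variable (h : E8Str G)
include h

theorem mem_unique {A B : Sylow 2 G} {x : G} (hA : x ∈ (A : Subgroup G)) (hB : x ∈ (B : Subgroup G)) (hx : x ≠ 1) :
    A = B := by
  have hle : (B : Subgroup G) ≤ NN A := by
    intro y hy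
    apply h.cent_le A x hA hx
    rw [mem_centralizer_singleton_iff]
    exact comm_of_elem (h.elem B) hy hB
  exact (sylow_eq_of_le_normalizer hle).symm

omit h in
theorem exists_mem {x : G} (hx : x ^ 2 = 1) (hx1 : x ≠ 1) : ∃ A : Sylow 2 G, x ∈ (A : Subgroup G) :=
  exists_sylow_mem_of_orderOf (orderOf_eq_prime hx hx1)

theorem exists_ne_one (A : Sylow 2 G) : ∃ u ∈ (A : Subgroup G), u ≠ 1 := by
  by_contra hno
  push Not at hno
  have h1 : (A : Subgroup G) = ⊥ := (Subgroup.eq_bot_iff_forall _).2 hno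
  have h2 := h.card8 A
  rw [h1, Subgroup.card_bot] at h2
  omega

omit h in
theorem exists_mid {u v : G} (hu : u ^ 2 = 1) (hv : v ^ 2 = 1) {k : ℕ} (ho : orderOf (u * v) = 2 * k + 1) :
    ∃ w : G, w ^ 2 = 1 ∧ w * u * w⁻¹ = v ∧ ∀ z : G, Commute z u → Commute z v → Commute z w := by
  set c := u * v with hc
  have huu := inv_eq_of_sq hu
  have hvv := inv_eq_of_sq hv
  have huu1 : u * u = 1 := by rw [← pow_two]; exact hu
  have h1 : u * c * u = c⁻¹ := by
    rw [hc, mul_inv_rev, huu, hvv, ← mul_assoc u u v, huu1, one_mul]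
  have hconj : ∀ i : ℕ, u * c ^ i * u = (c⁻¹) ^ i := by
    intro i
    have := conj_pow' u c i
    rw [huu, h1] at this
    exact this.symm
  have hc1 : c ^ (2 * k + 1) = 1 := by rw [← ho]; exact pow_orderOf_eq_one _
  refine ⟨u * c ^ (k + 1), ?_, ?_, ?_⟩
  · rw [pow_two]
    calc u * c ^ (k + 1) * (u * c ^ (k + 1)) = (u * c ^ (k + 1) * u) * c ^ (k + 1) := by group
      _ = 1 := by rw [hconj, inv_pow]; group
  · have hw : (u * c ^ (k + 1)) ^ 2 = 1 := by
      rw [pow_two]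
      calc u * c ^ (k + 1) * (u * c ^ (k + 1)) = (u * c ^ (k + 1) * u) * c ^ (k + 1) := by group
        _ = 1 := by rw [hconj, inv_pow]; group
    rw [inv_eq_of_sq hw]
    have h2 : u * u = 1 := by rw [← pow_two]; exact hu
    calc u * c ^ (k + 1) * u * (u * c ^ (k + 1)) = u * c ^ (k + 1) * (u * u) * c ^ (k + 1) := by
          simp only [mul_assoc]
      _ = u * c ^ (2 * k + 1 + 1) := by
          rw [h2, mul_one, mul_assoc, ← pow_add]
          congr 2
          ring
      _ = u * c := by rw [pow_succ, hc1, one_mul]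
      _ = v := by rw [hc, ← mul_assoc, h2, one_mul]
  · intro z hzu hzv
    exact hzu.mul_right ((hzu.mul_right hzv).pow_right _)

theorem odd_order {A B : Sylow 2 G} (hAB : A ≠ B) {u v : G} (hu : u ∈ (A : Subgroup G)) (hu1 : u ≠ 1)
    (hv : v ∈ (B : Subgroup G)) (hv1 : v ≠ 1) : ∃ k, orderOf (u * v) = 2 * k + 1 := by
  have hu2 := h.elem A u hu
  have hv2 := h.elem B v hv
  have huu := inv_eq_of_sq hu2
  have hvv := inv_eq_of_sq hv2
  have hpos : 0 < orderOf (u * v) := orderOf_pos _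
  rcases Nat.even_or_odd' (orderOf (u * v)) with ⟨k, hk | hk⟩
  · exfalso
    set c := u * v with hc
    have hk0 : k ≠ 0 := by
      rintro rfl
      omega
    have hz1 : c ^ k ≠ 1 := pow_ne_one_of_lt_orderOf hk0 (by omega)
    have hz2 : (c ^ k) ^ 2 = 1 := by
      rw [← pow_mul, mul_comm, ← hk]
      exact pow_orderOf_eq_one _
    have hzi := inv_eq_of_sq hz2
    have huu1 : u * u = 1 := by rw [← pow_two]; exact hu2
    have h1 : u * c * u⁻¹ = c⁻¹ := by
      rw [hc, mul_inv_rev, huu, hvv, ← mul_assoc u u v, huu1, one_mul]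
    have h2 : v * c * v⁻¹ = c⁻¹ := by
      rw [hc, mul_inv_rev, huu, hvv, mul_assoc, mul_assoc]
      rw [← pow_two, hv2, mul_one]
    have hcu : (c ^ k) ∈ centralizer ({u} : Set G) := by
      rw [mem_centralizer_singleton_iff]
      have h3 := conj_pow' u c k
      rw [h1, inv_pow, hzi] at h3
      calc c ^ k * u = (u * c ^ k * u⁻¹) * u := by rw [← h3]
        _ = u * c ^ k := by group
    have hcv : (c ^ k) ∈ centralizer ({v} : Set G) := by
      rw [mem_centralizer_singleton_iff]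
      have h3 := conj_pow' v c k
      rw [h2, inv_pow, hzi] at h3
      calc c ^ k * v = (v * c ^ k * v⁻¹) * v := by rw [← h3]
        _ = v * c ^ k := by group
    have hA' := mem_of_mem_norm hz2 (h.cent_le A u hu hu1 hcu)
    have hB' := mem_of_mem_norm hz2 (h.cent_le B v hv hv1 hcv)
    exact hAB (mem_unique h hA' hB' hz1)
  · exact ⟨k, hk⟩

theorem exists_swap {A B : Sylow 2 G} (hAB : A ≠ B) {u v : G} (hu : u ∈ (A : Subgroup G)) (hu1 : u ≠ 1)
    (hv : v ∈ (B : Subgroup G)) (hv1 : v ≠ 1) :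
    ∃ w : G, w ^ 2 = 1 ∧ w ≠ 1 ∧ w • A = B ∧ w • B = A ∧ w * u * w⁻¹ = v ∧
      ∀ z : G, Commute z u → Commute z v → Commute z w := by
  obtain ⟨k, hk⟩ := odd_order h hAB hu hu1 hv hv1
  obtain ⟨w, hw2, hwc, hwz⟩ := exists_mid (h.elem A u hu) (h.elem B v hv) hk
  have hwA : w • A = B := by
    apply mem_unique h (x := v) _ hv hv1
    rw [mem_smul_sylow_iff, ← hwc]
    have : w⁻¹ * (w * u * w⁻¹) * w = u := by group
    rwa [this]
  have hw1 : w ≠ 1 := by
    rintro rfl
    rw [one_smul] at hwA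
    exact hAB hwA
  have hww : w * w = 1 := by rw [← pow_two]; exact hw2
  have hwB : w • B = A := by
    rw [← hwA, smul_smul, hww, one_smul]
  exact ⟨w, hw2, hw1, hwA, hwB, hwc, hwz⟩

omit h in
theorem mem_NN_iff {A : Sylow 2 G} {g : G} : g ∈ NN A ↔ g • A = A :=
  (Sylow.smul_eq_iff_mem_normalizer).symm

theorem card_sharp (A : Sylow 2 G) : Nat.card ({v | v ∈ (A : Subgroup G) ∧ v ≠ 1} : Set G) = 7 := by
  have h3 : ({v | v ∈ (A : Subgroup G) ∧ v ≠ 1} : Set G) = ((A : Subgroup G) : Set G) \ {1} := by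
    ext u
    exact ⟨fun ⟨a, b⟩ => ⟨a, b⟩, fun ⟨a, b⟩ => ⟨a, b⟩⟩
  rw [h3, Nat.card_coe_set_eq, Set.ncard_sdiff_singleton_of_mem (by simp)]
  have h4 : ((A : Subgroup G) : Set G).ncard = 8 := by
    rw [← Nat.card_coe_set_eq]
    exact h.card8 A
  rw [h4]

theorem card_NN (A : Sylow 2 G) : Nat.card (NN A) = 168 := by
  obtain ⟨u, hu, hu1⟩ := exists_ne_one h A
  have hun : u ∈ NN A := Subgroup.le_normalizer hu
  have h1 := Cfsg.Agent.Lib.JUG1.card_orbit (NN A) hun {v | v ∈ (A : Subgroup G) ∧ v ≠ 1} (by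
    intro v
    constructor
    · rintro ⟨h1, h2⟩
      exact h.trans A u hu v h1 hu1 h2
    · rintro ⟨n, hn, rfl⟩
      refine ⟨?_, ?_⟩
      · have := (Subgroup.mem_normalizer_iff.1 hn u).1 hu
        exact this
      · intro h5
        apply hu1
        have : u = n⁻¹ * (n * u * n⁻¹) * n := by group
        rw [this, h5]
        group)
  rw [card_sharp h A, inf_eq_right.2 (h.cent_le A u hu hu1), h.card_cent A u hu hu1] at h1
  exact h1

omit h in
theorem card_subgroupOf_le' {H K : Subgroup G} (hle : H ≤ K) : Nat.card (H.subgroupOf K) = Nat.card H :=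
  Cfsg.Agent.Lib.JUG4.card_subgroupOf_le hle

theorem index_A (A : Sylow 2 G) : ((A : Subgroup G).subgroupOf (NN A)).index = 21 := by
  have h1 := Subgroup.card_mul_index ((A : Subgroup G).subgroupOf (NN A))
  rw [card_subgroupOf_le' Subgroup.le_normalizer, h.card8 A, card_NN h A] at h1
  omega

/-- `NN A ⊓ NN B` meets `A` trivially. -/
theorem inter_triv {A B : Sylow 2 G} (hAB : A ≠ B) {x : G} (hx : x ∈ (A : Subgroup G)) (hxB : x ∈ NN B) : x = 1 := by
  by_contra hx1
  exact hAB (mem_unique h hx (mem_of_mem_norm (h.elem A x hx) hxB) hx1)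

theorem card_inter_dvd {A B : Sylow 2 G} (hAB : A ≠ B) : Nat.card ↥(NN A ⊓ NN B) ∣ 21 := by
  let A' := (A : Subgroup G).subgroupOf (NN A)
  haveI : A'.Normal := Subgroup.normal_in_normalizer
  let H' := (NN A ⊓ NN B).subgroupOf (NN A)
  let φ : H' →* (NN A) ⧸ A' := (QuotientGroup.mk' A').comp H'.subtype
  have hφ : Function.Injective φ := by
    rw [injective_iff_map_eq_one]
    rintro ⟨⟨x, hxN⟩, hx⟩ hφx
    have h1 : (⟨x, hxN⟩ : NN A) ∈ A' := (QuotientGroup.eq_one_iff _).1 hφx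
    have h2 : x ∈ (A : Subgroup G) := h1
    have h3 : x ∈ NN A ⊓ NN B := hx
    have h4 := inter_triv h hAB h2 h3.2
    subst h4
    rfl
  have h1 := Subgroup.card_dvd_of_injective φ hφ
  rw [card_subgroupOf_le' (inf_le_left : NN A ⊓ NN B ≤ NN A)] at h1
  have h2 : Nat.card ((NN A) ⧸ A') = 21 := by
    rw [← Subgroup.index_eq_card]
    exact index_A h A
  rwa [h2] at h1

theorem seven_dvd {A B : Sylow 2 G} (hAB : A ≠ B) : 7 ∣ Nat.card ↥(NN A ⊓ NN B) := by
  classical
  obtain ⟨x, hx, hx1⟩ := exists_ne_one h A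
  obtain ⟨v0, hv0, hv01⟩ := exists_ne_one h B
  obtain ⟨m, hm2, hm1, hmA, hmB, -, -⟩ := exists_swap h hAB hx hx1 hv0 hv01
  have hmi := inv_eq_of_sq hm2
  let H := NN A ⊓ NN B
  letI : MulAction H G := MulAction.compHom G ((MulAut.conj : G →* MulAut G).comp H.subtype)
  have hsm : ∀ (a : H) (g : G), a • g = (a : G) * g * (a : G)⁻¹ := fun a g => rfl
  have horb : (MulAction.orbit H x : Set G) = {v | v ∈ (A : Subgroup G) ∧ v ≠ 1} := by
    ext y
    constructor
    · rintro ⟨a, rfl⟩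
      refine ⟨?_, ?_⟩
      · show (a : G) * x * (a : G)⁻¹ ∈ (A : Subgroup G)
        exact (Subgroup.mem_normalizer_iff.1 a.2.1 x).1 hx
      · intro h5
        apply hx1
        have h6 : (a : G) * x * (a : G)⁻¹ = 1 := h5
        have : x = (a : G)⁻¹ * ((a : G) * x * (a : G)⁻¹) * (a : G) := by group
        rw [this, h6]
        group
    · rintro ⟨hy, hy1⟩
      have hy' : m * y * m⁻¹ ∈ (B : Subgroup G) := by
        have := Cfsg.Agent.Lib.JUG1.conj_mem_of_smul A B m hmA hy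
        exact this
      have hy1' : m * y * m⁻¹ ≠ 1 := by
        intro h5
        apply hy1
        have : y = m⁻¹ * (m * y * m⁻¹) * m := by group
        rw [this, h5]
        group
      obtain ⟨w, hw2, hw1, hwA, hwB, hwc, -⟩ := exists_swap h hAB hx hx1 hy' hy1'
      have hmem : m * w ∈ H := by
        constructor
        · show m * w ∈ NN A
          rw [mem_NN_iff, mul_smul, hwA, hmB]
        · show m * w ∈ NN B
          rw [mem_NN_iff, mul_smul, hwB, hmA]
      refine ⟨⟨m * w, hmem⟩, ?_⟩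
      show (m * w) * x * (m * w)⁻¹ = y
      calc (m * w) * x * (m * w)⁻¹ = m * (w * x * w⁻¹) * m⁻¹ := by group
        _ = m * (m * y * m⁻¹) * m⁻¹ := by rw [hwc]
        _ = y := by
          rw [hmi]
          have hmm : m * m = 1 := by rw [← pow_two]; exact hm2
          calc m * (m * y * m) * m = (m * m) * y * (m * m) := by group
            _ = y := by rw [hmm]; group
  have h1 := MulAction.index_stabilizer H x
  have h2 : (MulAction.orbit H x).ncard = 7 := by
    rw [horb, ← Nat.card_coe_set_eq]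
    exact card_sharp h A
  rw [h2] at h1
  rw [← h1]
  exact Subgroup.index_dvd_card _

theorem exists_s {A B : Sylow 2 G} (hAB : A ≠ B) : ∃ s : G, s ∈ NN A ∧ s ∈ NN B ∧ orderOf s = 7 := by
  haveI : Fact (Nat.Prime 7) := ⟨by norm_num⟩
  obtain ⟨x, hx⟩ := exists_prime_orderOf_dvd_card' (G := ↥(NN A ⊓ NN B)) 7 (seven_dvd h hAB)
  refine ⟨x, x.2.1, x.2.2, ?_⟩
  rw [Subgroup.orderOf_coe]
  exact hx

theorem no_commute {w s : G} (hw : w ^ 2 = 1) (hw1 : w ≠ 1) (hs : orderOf s = 7) (hc : s * w = w * s) : False := by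
  obtain ⟨A, hA⟩ := exists_mem hw hw1
  have h1 : s ∈ centralizer ({w} : Set G) := by
    rw [mem_centralizer_singleton_iff]
    exact hc
  have h2 := Subgroup.orderOf_dvd_natCard _ h1
  rw [h.card_cent A w hA hw1, hs] at h2
  omega

omit h in
theorem unique_order7 {H : Type*} [Group H] [Finite H] (hH : Nat.card H ∣ 21) {x y : H} (hx : orderOf x = 7)
    (hy : orderOf y = 7) : y ∈ zpowers x := by
  classical
  haveI : Fact (Nat.Prime 7) := ⟨by norm_num⟩
  haveI : Fact (Nat.Prime 3) := ⟨by norm_num⟩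
  have h7 : 7 ∣ Nat.card H := hx ▸ orderOf_dvd_natCard x
  have hc : Nat.card H = 7 ∨ Nat.card H = 21 := by
    have : Nat.card H ∈ Nat.divisors 21 := Nat.mem_divisors.2 ⟨hH, by norm_num⟩
    have h2 : Nat.divisors 21 = {1, 3, 7, 21} := by decide
    rw [h2] at this
    simp only [Finset.mem_insert, Finset.mem_singleton] at this
    omega
  -- the subgroup `zpowers x` has index at most 3
  by_contra hno
  have hcard := Nat.card_zpowers x
  rw [hx] at hcard
  have hi := Subgroup.card_mul_index (zpowers x)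
  rw [hcard] at hi
  rcases hc with hc | hc
  · rw [hc] at hi
    have h1 : (zpowers x).index = 1 := by omega
    rw [Subgroup.index_eq_one] at h1
    rw [h1] at hno
    exact hno (mem_top y)
  · rw [hc] at hi
    have h1 : (zpowers x).index = 3 := by omega
    have hmin : (zpowers x).index = (Nat.card H).minFac := by
      rw [h1, hc]
      norm_num
    haveI hnorm : (zpowers x).Normal := Subgroup.normal_of_index_eq_minFac_card hmin
    have h2 : (QuotientGroup.mk y : H ⧸ zpowers x) ^ 7 = 1 := by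
      rw [← QuotientGroup.mk_pow, ← hy, pow_orderOf_eq_one, QuotientGroup.mk_one]
    have h3 : (QuotientGroup.mk y : H ⧸ zpowers x) ^ 3 = 1 := by
      have : Nat.card (H ⧸ zpowers x) = 3 := by
        rw [← Subgroup.index_eq_card, h1]
      rw [← this]
      exact pow_card_eq_one'
    have h4 : (QuotientGroup.mk y : H ⧸ zpowers x) = 1 := by
      have h6 : (QuotientGroup.mk y : H ⧸ zpowers x) ^ (Nat.gcd 7 3) = 1 := pow_gcd_eq_one.2 ⟨h2, h3⟩
      have h7 : Nat.gcd 7 3 = 1 := by norm_num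
      rwa [h7, pow_one] at h6
    exact hno ((QuotientGroup.eq_one_iff _).1 h4)

theorem inverts {A B : Sylow 2 G} (hAB : A ≠ B) {s : G} (hsA : s ∈ NN A) (hsB : s ∈ NN B) (ho : orderOf s = 7)
    {w : G} (hw : w ^ 2 = 1) (hw1 : w ≠ 1) (hwA : w • A = B) (hwB : w • B = A) : w * s * w⁻¹ = s⁻¹ := by
  haveI : Fact (Nat.Prime 7) := ⟨by norm_num⟩
  have hwi := inv_eq_of_sq hw
  have hww : w * w = 1 := by rw [← pow_two]; exact hw
  set t := w * s * w⁻¹ with ht
  have htA : t ∈ NN A := by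
    rw [mem_NN_iff, ht, hwi, mul_smul, mul_smul, hwA, mem_NN_iff.1 hsB, hwB]
  have htB : t ∈ NN B := by
    rw [mem_NN_iff, ht, hwi, mul_smul, mul_smul, hwB, mem_NN_iff.1 hsA, hwA]
  have ht7 : t ^ 7 = 1 := by
    rw [ht, conj_pow', ← ho, pow_orderOf_eq_one]
    group
  have ht1 : t ≠ 1 := by
    intro h5
    have h6 : s = w⁻¹ * (w * s * w⁻¹) * w := by group
    rw [← ht, h5] at h6
    have h7 : s = 1 := by rw [h6]; group
    rw [h7, orderOf_one] at ho
    omega
  have hto : orderOf t = 7 := orderOf_eq_prime ht7 ht1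
  have h1 := unique_order7 (card_inter_dvd h hAB) (x := (⟨s, hsA, hsB⟩ : ↥(NN A ⊓ NN B)))
    (y := (⟨t, htA, htB⟩ : ↥(NN A ⊓ NN B))) (by rw [← Subgroup.orderOf_coe]; exact ho)
    (by rw [← Subgroup.orderOf_coe]; exact hto)
  obtain ⟨n, hn⟩ := (mem_powers_iff_mem_zpowers).2 h1
  have hn' : s ^ n = t := by
    have := congrArg Subtype.val hn
    simpa using this
  set i := n % 7 with hi
  have hi7 : i < 7 := Nat.mod_lt _ (by norm_num)
  have hsi : s ^ i = t := by
    rw [hi, ← ho, pow_mod_orderOf]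
    exact hn'
  have h2 : s ^ (i * i) = s := by
    rw [pow_mul, hsi, ht, conj_pow', hsi, ht]
    rw [hwi]
    calc w * (w * s * w) * w = (w * w) * s * (w * w) := by group
      _ = s := by rw [hww]; group
  have h3 : i * i ≡ 1 [MOD 7] := by
    have h4 : s ^ (i * i) = s ^ 1 := by rw [h2, pow_one]
    have h5 := (pow_eq_pow_iff_modEq).1 h4
    rwa [ho] at h5
  have hs6 : s ^ 6 = s⁻¹ := by
    have h6 : s ^ 7 = 1 := by rw [← ho]; exact pow_orderOf_eq_one s
    rw [eq_inv_iff_mul_eq_one, ← pow_succ]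
    exact h6
  interval_cases hii : i
  · exact absurd h3 (by decide)
  · -- commuting
    exfalso
    rw [pow_one] at hsi
    refine no_commute h hw hw1 ho ?_
    have : w * s = t * w := by rw [ht]; group
    rw [this, ← hsi]
  · exact absurd h3 (by decide)
  · exact absurd h3 (by decide)
  · exact absurd h3 (by decide)
  · exact absurd h3 (by decide)
  · rw [← hsi]
    exact hs6

theorem no_inv {A : Sylow 2 G} {s r : G} (hsA : s ∈ NN A) (ho : orderOf s = 7) (hr : r ∈ NN A)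
    (hinv : r * s * r⁻¹ = s⁻¹) : False := by
  let A' := (A : Subgroup G).subgroupOf (NN A)
  haveI : A'.Normal := Subgroup.normal_in_normalizer
  have hc : Nat.card ((NN A) ⧸ A') = 21 := by
    rw [← Subgroup.index_eq_card]
    exact index_A h A
  have h1 : ((QuotientGroup.mk (⟨r, hr⟩ : NN A)) : (NN A) ⧸ A') ^ 21 = 1 := by
    rw [← hc]
    exact pow_card_eq_one'
  have h2 : (⟨r, hr⟩ : NN A) ^ 21 ∈ A' := by
    rw [← QuotientGroup.mk_pow] at h1
    exact (QuotientGroup.eq_one_iff _).1 h1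
  have h3 : r ^ 21 ∈ (A : Subgroup G) := h2
  have hcs : Commute (r ^ 2) s := by
    show r ^ 2 * s = s * r ^ 2
    have h4 : r * s⁻¹ * r⁻¹ = s := by
      have := congrArg (·⁻¹) hinv
      simp only [mul_inv_rev, inv_inv] at this
      rw [mul_assoc]
      exact this
    calc r ^ 2 * s = (r * (r * s * r⁻¹) * r⁻¹) * r ^ 2 := by rw [pow_two]; group
      _ = s * r ^ 2 := by rw [hinv, h4]
  have h5 : r ^ 21 * s * (r ^ 21)⁻¹ = s⁻¹ := by
    have h6 : r ^ 21 = (r ^ 2) ^ 10 * r := by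
      rw [← pow_mul, ← pow_succ]
    have h7 : Commute ((r ^ 2) ^ 10) s⁻¹ := (hcs.pow_left 10).inv_right
    rw [h6]
    calc (r ^ 2) ^ 10 * r * s * ((r ^ 2) ^ 10 * r)⁻¹ = (r ^ 2) ^ 10 * (r * s * r⁻¹) * ((r ^ 2) ^ 10)⁻¹ := by group
      _ = (r ^ 2) ^ 10 * s⁻¹ * ((r ^ 2) ^ 10)⁻¹ := by rw [hinv]
      _ = s⁻¹ * (r ^ 2) ^ 10 * ((r ^ 2) ^ 10)⁻¹ := by rw [h7.eq]
      _ = s⁻¹ := by group
  set a := r ^ 21 with ha
  have h8 : s * a⁻¹ * s⁻¹ ∈ (A : Subgroup G) := (Subgroup.mem_normalizer_iff.1 hsA _).1 (inv_mem h3)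
  have h9 : a * (s * a⁻¹ * s⁻¹) = s⁻¹ * s⁻¹ := by
    calc a * (s * a⁻¹ * s⁻¹) = (a * s * a⁻¹) * s⁻¹ := by group
      _ = s⁻¹ * s⁻¹ := by rw [h5]
  have h10 : s⁻¹ * s⁻¹ ∈ (A : Subgroup G) := by
    rw [← h9]
    exact mul_mem h3 h8
  have h11 := h.elem A _ h10
  have h12 : s ^ 4 = 1 := by
    have h13 : (s⁻¹ * s⁻¹) ^ 2 = (s ^ 4)⁻¹ := by
      simp only [pow_two, pow_succ, pow_zero, one_mul]
      group
    rw [h13] at h11
    exact inv_eq_one.1 h11
  have h14 := orderOf_dvd_of_pow_eq_one h12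
  rw [ho] at h14
  omega

/-- An element of order `7` fixes at most two Sylow subgroups. -/
theorem three_pts {A B C : Sylow 2 G} (hAB : A ≠ B) (hAC : A ≠ C) (hBC : B ≠ C) {s : G}
    (hsA : s ∈ NN A) (hsB : s ∈ NN B) (hsC : s ∈ NN C) (ho : orderOf s = 7) : False := by
  obtain ⟨u, hu, hu1⟩ := exists_ne_one h A
  obtain ⟨v, hv, hv1⟩ := exists_ne_one h B
  obtain ⟨y, hy, hy1⟩ := exists_ne_one h C
  obtain ⟨w1, h12, h11, h1A, h1B, -, -⟩ := exists_swap h hAB hu hu1 hv hv1
  obtain ⟨w2, h22, h21, h2A, h2C, -, -⟩ := exists_swap h hAC hu hu1 hy hy1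
  obtain ⟨w3, h32, h31, h3B, h3C, -, -⟩ := exists_swap h hBC hv hv1 hy hy1
  have i1 := inverts h hAB hsA hsB ho h12 h11 h1A h1B
  have i2 := inverts h hAC hsA hsC ho h22 h21 h2A h2C
  have i3 := inverts h hBC hsB hsC ho h32 h31 h3B h3C
  have hr : w3 * w2 * w1 ∈ NN B := by
    rw [mem_NN_iff, mul_smul, mul_smul, h1B, h2A, h3C]
  refine no_inv h hsB ho hr ?_
  have i2' : w2 * s⁻¹ * w2⁻¹ = s := by
    have := congrArg (·⁻¹) i2
    simp only [mul_inv_rev, inv_inv] at this
    rw [mul_assoc]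
    exact this
  calc w3 * w2 * w1 * s * (w3 * w2 * w1)⁻¹ = w3 * (w2 * (w1 * s * w1⁻¹) * w2⁻¹) * w3⁻¹ := by group
    _ = s⁻¹ := by rw [i1, i2', i3]

theorem fix_two {A B C : Sylow 2 G} (hAB : A ≠ B) {s : G} (hsA : s ∈ NN A) (hsB : s ∈ NN B) (hsC : s ∈ NN C)
    (ho : orderOf s = 7) : C = A ∨ C = B := by
  by_contra hno
  push Not at hno
  exact three_pts h hAB hno.1.symm hno.2.symm hsA hsB hsC ho

end Cfsg.Agent.Lib.JZB
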