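import Mathlib
import Cfsg.Agent.Lib.JZB

/-!
# Groups with the local structure `E8Str`: the degree is `9`, and the order is `1512`.
-/

set_option autoImplicit false
set_option linter.unusedVariables false
set_option linter.unusedSectionVars false
set_option linter.style.haveILetI false

namespace Cfsg.Agent.Lib.JZC

open Subgroup Cfsg.Agent.Lib.JZB
open Cfsg.Agent.Lib.SmallGroups2 (mem_smul_sylow_iff sylow_eq_of_le_normalizer card_normalizer_mul_card_sylow exists_sylow_mem_of_orderOf)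

variable {G : Type*} [Group G] [Finite G]

theorem conj_seven {N : Type*} [Group N] [Finite N] (hN : Nat.card N = 168) {x y : N} (hx : orderOf x = 7)
    (hy : orderOf y = 7) : ∃ m : N, m * x * m⁻¹ ∈ zpowers y := by
  haveI : Fact (Nat.Prime 7) := ⟨by norm_num⟩
  have hc : Nat.card N = 7 ^ 1 * 24 := by rw [hN]; norm_num
  have h1 : Nat.card (zpowers x) = 7 ^ 1 := by rw [Nat.card_zpowers, hx]; norm_num
  have h2 : Nat.card (zpowers y) = 7 ^ 1 := by rw [Nat.card_zpowers, hy]; norm_num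
  let P := Cfsg.Agent.Lib.JUG1.sylowOf (zpowers x) h1 hc (by norm_num)
  let Q := Cfsg.Agent.Lib.JUG1.sylowOf (zpowers y) h2 hc (by norm_num)
  obtain ⟨m, hm⟩ := Cfsg.Agent.Lib.JUG1.sylow_conj_mem P Q
  refine ⟨m, ?_⟩
  have h3 := hm x (by rw [Cfsg.Agent.Lib.JUG1.coe_sylowOf]; exact mem_zpowers x)
  rwa [Cfsg.Agent.Lib.JUG1.coe_sylowOf] at h3

variable (h : E8Str G)
include h

theorem exists_z {A B : Sylow 2 G} (hAB : A ≠ B) {s : G} (hsA : s ∈ NN A) (hsB : s ∈ NN B) (ho : orderOf s = 7) :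
    ∃ z : G, z ∈ NN A ∧ z ∈ NN B ∧ orderOf z = 3 ∧ ∃ j : ℕ, z⁻¹ * s * z = s ^ j := by
  haveI : Fact (Nat.Prime 7) := ⟨by norm_num⟩
  haveI : Fact (Nat.Prime 3) := ⟨by norm_num⟩
  have hN := card_NN h A
  obtain ⟨z₀, hz₀⟩ := exists_prime_orderOf_dvd_card' (G := NN A) 3 (by rw [hN]; norm_num)
  have hz3 : z₀ ^ 3 = 1 := by rw [← hz₀]; exact pow_orderOf_eq_one _
  obtain ⟨s₀, hs7, hs1, j, hj⟩ := Cfsg.Agent.Lib.JUG4.exists_sylow7_fix hN z₀ hz3
  have hso : orderOf s₀ = 7 := orderOf_eq_prime hs7 hs1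
  let sN : NN A := ⟨s, hsA⟩
  have hsN : orderOf sN = 7 := by rw [← Subgroup.orderOf_coe]; exact ho
  obtain ⟨m, hm⟩ := conj_seven hN hsN hso
  obtain ⟨t, ht⟩ := (mem_powers_iff_mem_zpowers).2 hm
  have hrel : (m⁻¹ * z₀ * m)⁻¹ * sN * (m⁻¹ * z₀ * m) = sN ^ j := by
    have h2 : z₀⁻¹ * s₀ ^ t * z₀ = (s₀ ^ t) ^ j := by
      have h3 := conj_pow' z₀⁻¹ s₀ t
      rw [inv_inv, hj] at h3
      rw [← h3, ← pow_mul, ← pow_mul, mul_comm]
    calc (m⁻¹ * z₀ * m)⁻¹ * sN * (m⁻¹ * z₀ * m) = m⁻¹ * (z₀⁻¹ * (m * sN * m⁻¹) * z₀) * m := by group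
      _ = m⁻¹ * (m * sN * m⁻¹) ^ j * m := by rw [← ht, h2]
      _ = sN ^ j := by rw [conj_pow']; group
  set z' : NN A := m⁻¹ * z₀ * m with hz'
  have hz'1 : z' ≠ 1 := by
    intro h5
    have h6 : z₀ = m * z' * m⁻¹ := by rw [hz']; group
    rw [h5] at h6
    have h7 : z₀ = 1 := by rw [h6]; group
    rw [h7, orderOf_one] at hz₀
    omega
  have hz'3 : z' ^ 3 = 1 := by
    have h6 : z' = m⁻¹ * z₀ * m⁻¹⁻¹ := by rw [hz', inv_inv]
    rw [h6, conj_pow', hz3]
    group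
  have hz'o : orderOf z' = 3 := orderOf_eq_prime hz'3 hz'1
  have hrelG : (z' : G)⁻¹ * s * (z' : G) = s ^ j := by
    have := congrArg Subtype.val hrel
    simpa using this
  have hjo : orderOf (s ^ j) = 7 := by
    refine orderOf_eq_prime ?_ ?_
    · rw [← pow_mul, mul_comm, pow_mul, ← ho, pow_orderOf_eq_one, one_pow]
    · intro h5
      rw [← hrelG] at h5
      have h6 : s = 1 := by
        have h7 : s = (z' : G) * ((z' : G)⁻¹ * s * (z' : G)) * (z' : G)⁻¹ := by group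
        rw [h7, h5]
        group
      rw [h6, orderOf_one] at ho
      omega
  have hsjA : s ^ j ∈ NN A := pow_mem hsA j
  have hsjB : s ^ j ∈ NN B := pow_mem hsB j
  have hfix : s ^ j ∈ NN ((z' : G)⁻¹ • B) := by
    rw [mem_NN_iff, smul_smul]
    have h5 : s ^ j * (z' : G)⁻¹ = (z' : G)⁻¹ * s := by
      rw [← hrelG]; group
    rw [h5, mul_smul, mem_NN_iff.1 hsB]
  have hzA : (z' : G) ∈ NN A := z'.2
  refine ⟨z', hzA, ?_, ?_, j, hrelG⟩
  · rcases fix_two h hAB hsjA hsjB hfix hjo with h5 | h5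
    · exfalso
      apply hAB
      have h6 : (z' : G) • ((z' : G)⁻¹ • B) = B := by rw [smul_smul]; simp
      rw [h5, mem_NN_iff.1 hzA] at h6
      exact h6
    · have h6 : (z' : G)⁻¹ ∈ NN B := mem_NN_iff.2 h5
      simpa using inv_mem h6
  · rw [Subgroup.orderOf_coe]
    exact hz'o

theorem card_H {A B : Sylow 2 G} (hAB : A ≠ B) : Nat.card ↥(NN A ⊓ NN B) = 21 := by
  obtain ⟨s, hsA, hsB, ho⟩ := exists_s h hAB
  obtain ⟨z, hzA, hzB, hz3, -⟩ := exists_z h hAB hsA hsB ho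
  have h7 := seven_dvd h hAB
  have h3 : 3 ∣ Nat.card ↥(NN A ⊓ NN B) := by
    have := Subgroup.orderOf_dvd_natCard (NN A ⊓ NN B) (⟨hzA, hzB⟩ : z ∈ NN A ⊓ NN B)
    rwa [hz3] at this
  have h21 : 21 ∣ Nat.card ↥(NN A ⊓ NN B) := by
    have : 3 * 7 ∣ Nat.card ↥(NN A ⊓ NN B) := Nat.Coprime.mul_dvd_of_dvd_of_dvd (by norm_num) h3 h7
    simpa using this
  exact Nat.dvd_antisymm (card_inter_dvd h hAB) h21

theorem trans_norm {A B C : Sylow 2 G} (hAB : A ≠ B) (hAC : A ≠ C) : ∃ m ∈ NN A, m • C = B := by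
  haveI : Fact (Nat.Prime 7) := ⟨by norm_num⟩
  obtain ⟨s, hsA, hsB, ho⟩ := exists_s h hAB
  obtain ⟨r, hrA, hrC, hr⟩ := exists_s h hAC
  let sN : NN A := ⟨s, hsA⟩
  let rN : NN A := ⟨r, hrA⟩
  have hsN : orderOf sN = 7 := by rw [← Subgroup.orderOf_coe]; exact ho
  have hrN : orderOf rN = 7 := by rw [← Subgroup.orderOf_coe]; exact hr
  obtain ⟨m, hm⟩ := conj_seven (card_NN h A) hrN hsN
  obtain ⟨t, ht⟩ := (mem_powers_iff_mem_zpowers).2 hm
  have hG : s ^ t = (m : G) * r * (m : G)⁻¹ := by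
    have := congrArg Subtype.val ht
    simpa using this
  have hsA' : s ^ t ∈ NN A := pow_mem hsA t
  have hsB' : s ^ t ∈ NN B := pow_mem hsB t
  have hfix : s ^ t ∈ NN ((m : G) • C) := by
    rw [mem_NN_iff, hG, smul_smul]
    have h5 : (m : G) * r * (m : G)⁻¹ * (m : G) = (m : G) * r := by group
    rw [h5, mul_smul, mem_NN_iff.1 hrC]
  have ho' : orderOf (s ^ t) = 7 := by
    refine orderOf_eq_prime ?_ ?_
    · rw [← pow_mul, mul_comm, pow_mul, ← ho, pow_orderOf_eq_one, one_pow]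
    · intro h5
      rw [hG] at h5
      have h6 : r = 1 := by
        have h7 : r = (m : G)⁻¹ * ((m : G) * r * (m : G)⁻¹) * (m : G) := by group
        rw [h7, h5]
        group
      rw [h6, orderOf_one] at hr
      omega
  refine ⟨m, m.2, ?_⟩
  rcases fix_two h hAB hsA' hsB' hfix ho' with h5 | h5
  · exfalso
    apply hAC
    have h6 : (m : G)⁻¹ • ((m : G) • C) = C := by rw [smul_smul]; simp
    have h7 : (m : G)⁻¹ ∈ NN A := inv_mem m.2
    rw [h5, mem_NN_iff.1 h7] at h6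
    exact h6
  · exact h5

theorem exists_ne (A : Sylow 2 G) : ∃ B : Sylow 2 G, A ≠ B := by
  by_contra hno
  push Not at hno
  apply h.ne_top A
  rw [eq_top_iff]
  intro g _
  rw [mem_NN_iff]
  exact (hno _).symm

/-- Counting the Sylow subgroups other than `A`. -/
theorem card_ne (A : Sylow 2 G) : ({C | C ≠ A} : Set (Sylow 2 G)).ncard = 8 := by
  obtain ⟨B, hAB⟩ := exists_ne h A
  let N := NN A
  have h1 := MulAction.index_stabilizer N B
  have horb : (MulAction.orbit N B : Set (Sylow 2 G)) = {C | C ≠ A} := by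
    ext C
    constructor
    · rintro ⟨n, rfl⟩ h5
      apply hAB
      have h6 : (n : G)⁻¹ • ((n : G) • B) = B := by rw [smul_smul]; simp
      have h7 : (n : G)⁻¹ ∈ NN A := inv_mem n.2
      have h8 : (n : G) • B = A := h5
      rw [h8, mem_NN_iff.1 h7] at h6
      exact h6
    · intro hC
      obtain ⟨m, hm, hmC⟩ := trans_norm h hAB (Ne.symm hC)
      refine ⟨(⟨m, hm⟩ : N)⁻¹, ?_⟩
      show (m⁻¹ : G) • B = C
      rw [← hmC, smul_smul]
      simp
  rw [← horb, ← h1]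
  have h2 : MulAction.stabilizer N B = (NN A ⊓ NN B).subgroupOf N := by
    ext ⟨n, hn⟩
    rw [MulAction.mem_stabilizer_iff, Subgroup.mem_subgroupOf]
    constructor
    · intro h5
      exact ⟨hn, mem_NN_iff.2 h5⟩
    · intro h5
      exact mem_NN_iff.1 h5.2
  rw [h2]
  have h3 := Subgroup.card_mul_index ((NN A ⊓ NN B).subgroupOf N)
  rw [card_subgroupOf_le' inf_le_left, card_H h hAB] at h3
  have h4 : Nat.card N = 168 := card_NN h A
  rw [h4] at h3
  omega

theorem card_nine : Nat.card (Sylow 2 G) = 9 := by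
  let A : Sylow 2 G := default
  have h1 := Set.ncard_add_ncard_compl ({A} : Set (Sylow 2 G))
  have h2 : ({A} : Set (Sylow 2 G))ᶜ = {C | C ≠ A} := by
    ext C
    simp
  rw [h2, card_ne h A, Set.ncard_singleton] at h1
  omega

theorem card_G : Nat.card G = 1512 := by
  have h1 := card_normalizer_mul_card_sylow (default : Sylow 2 G)
  rw [card_NN h, card_nine h] at h1
  omega

/-- `A` acts transitively on the other Sylow subgroups. -/
theorem A_trans {A B C : Sylow 2 G} (hAB : A ≠ B) (hAC : A ≠ C) : ∃ x ∈ (A : Subgroup G), x • B = C := by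
  classical
  let f : ↥(A : Subgroup G) → ↥({C | C ≠ A} : Set (Sylow 2 G)) := fun x => ⟨(x : G) • B, by
    intro h5
    apply hAB
    have h6 : (x : G)⁻¹ • ((x : G) • B) = B := by rw [smul_smul]; simp
    have h7 : (x : G)⁻¹ ∈ NN A := Subgroup.le_normalizer (inv_mem x.2)
    rw [h5, mem_NN_iff.1 h7] at h6
    exact h6⟩
  have hf : Function.Injective f := by
    rintro ⟨x, hx⟩ ⟨y, hy⟩ hxy
    have h1 : x • B = y • B := congrArg Subtype.val hxy
    have h2 : y⁻¹ * x ∈ NN B := by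
      rw [mem_NN_iff, mul_smul, h1, smul_smul]
      simp
    have h3 := inter_triv h hAB (mul_mem (inv_mem hy) hx) h2
    have h4 : x = y := by
      have h5 : y * (y⁻¹ * x) = y := by rw [h3, mul_one]
      simpa using h5
    exact Subtype.ext h4
  have hcard : Nat.card ({C | C ≠ A} : Set (Sylow 2 G)) ≤ Nat.card (A : Subgroup G) := by
    rw [Nat.card_coe_set_eq, card_ne h A, h.card8 A]
  have hb := hf.bijective_of_nat_card_le hcard
  obtain ⟨⟨x, hx⟩, hfx⟩ := hb.2 ⟨C, Ne.symm hAC⟩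
  exact ⟨x, hx, congrArg Subtype.val hfx⟩

end Cfsg.Agent.Lib.JZC
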