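import Mathlib
import Cfsg.Agent.Lib.JZC

/-!
# Groups with the local structure `E8Str`: a relation of order three.
-/

set_option autoImplicit false
set_option linter.unusedVariables false
set_option linter.unusedSectionVars false
set_option linter.style.haveILetI false

namespace Cfsg.Agent.Lib.JZD

open Subgroup Cfsg.Agent.Lib.JZB Cfsg.Agent.Lib.JZC
open Cfsg.Agent.Lib.SmallGroups2 (mem_smul_sylow_iff)

variable {G : Type*} [Group G] [Finite G]

/-- Fixed points of a conjugation of prime order on a subgroup, modulo the prime. -/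
theorem conj_mod {X : Subgroup G} {g : G} (hg : g ∈ normalizer ((X : Subgroup G) : Set G)) {p : ℕ} [Fact p.Prime]
    (hp : g ^ p = 1) : Nat.card X % p = Nat.card ↥(X ⊓ centralizer ({g} : Set G)) % p := by
  classical
  letI := Fintype.ofFinite X
  let f : Function.End ↥X := fun x => ⟨g * x * g⁻¹, (Subgroup.mem_normalizer_iff.1 hg x).1 x.2⟩
  have hfn : ∀ n : ℕ, ∀ x : ↥X, (((f ^ n) x : ↥X) : G) = g ^ n * x * (g ^ n)⁻¹ := by
    intro n
    induction n with
    | zero => intro x; simp; rfl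
    | succ n ih =>
      intro x
      rw [pow_succ']
      show (((f) ((f ^ n) x) : ↥X) : G) = _
      show g * (((f ^ n) x : ↥X) : G) * g⁻¹ = _
      rw [ih x, pow_succ']
      group
  have hF : f ^ p ^ 1 = 1 := by
    funext x
    apply Subtype.ext
    rw [pow_one, hfn p x, hp]
    simp
    rfl
  have hmod := Equiv.Perm.card_fixedPoints_modEq (f := f) hF
  have hcard : Fintype.card (Function.fixedPoints f) = Nat.card ↥(X ⊓ centralizer ({g} : Set G)) := by
    rw [← Nat.card_eq_fintype_card]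
    apply Nat.card_congr
    refine ⟨fun u => ⟨u.1.1, u.1.2, ?_⟩, fun v => ⟨⟨v.1, v.2.1⟩, ?_⟩, ?_, ?_⟩
    · show (u.1.1 : G) ∈ centralizer ({g} : Set G)
      rw [mem_centralizer_singleton_iff]
      have h1 : g * u.1.1 * g⁻¹ = u.1.1 := congrArg Subtype.val u.2
      calc u.1.1 * g = (g * u.1.1 * g⁻¹) * g := by rw [h1]
        _ = g * u.1.1 := by group
    · apply Subtype.ext
      have h1 : v.1 * g = g * v.1 := mem_centralizer_singleton_iff.1 v.2.2
      show g * v.1 * g⁻¹ = v.1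
      rw [← h1]
      group
    · intro u
      rfl
    · intro v
      rfl
  rw [← hcard, Nat.card_eq_fintype_card]
  exact hmod

variable (h : E8Str G)
include h

theorem exists_fix {A : Sylow 2 G} {z : G} (hz : z ∈ NN A) (hz3 : orderOf z = 3) :
    ∃ a ∈ (A : Subgroup G), a ≠ 1 ∧ z * a * z⁻¹ = a ∧ ∀ x ∈ (A : Subgroup G), z * x * z⁻¹ = x → x = 1 ∨ x = a := by
  classical
  haveI : Fact (Nat.Prime 3) := ⟨by norm_num⟩
  have hz31 : z ^ 3 = 1 := by rw [← hz3]; exact pow_orderOf_eq_one z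
  have hmod := conj_mod hz hz31
  rw [h.card8 A] at hmod
  set C := (A : Subgroup G) ⊓ centralizer ({z} : Set G) with hC
  have hd : Nat.card C ∣ 8 := by
    rw [← h.card8 A]
    exact Subgroup.card_dvd_of_le inf_le_left
  have hcases : Nat.card C = 2 ∨ Nat.card C = 8 := by
    have : Nat.card C ∈ Nat.divisors 8 := Nat.mem_divisors.2 ⟨hd, by norm_num⟩
    have h2 : Nat.divisors 8 = {1, 2, 4, 8} := by decide
    rw [h2] at this
    simp only [Finset.mem_insert, Finset.mem_singleton] at this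
    omega
  have h2 : Nat.card C = 2 := by
    rcases hcases with h2 | h8
    · exact h2
    · exfalso
      have hle : C ≤ (A : Subgroup G) := inf_le_left
      have heq : C = (A : Subgroup G) := Subgroup.eq_of_le_of_card_ge hle (by rw [h8, h.card8 A])
      have hzA : z ∈ (A : Subgroup G) := by
        apply h.self_cent A z
        intro x hx
        rw [← heq] at hx
        exact (mem_centralizer_singleton_iff.1 hx.2).symm
      have h3 := orderOf_dvd_of_pow_eq_one (h.elem A z hzA)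
      rw [hz3] at h3
      omega
  obtain ⟨⟨a, haC⟩, ha1, huniq⟩ := (Nat.card_eq_two_iff' (1 : C)).1 h2
  have ha1' : a ≠ 1 := fun h5 => ha1 (Subtype.ext h5)
  have hcomm : a * z = z * a := mem_centralizer_singleton_iff.1 haC.2
  refine ⟨a, haC.1, ha1', ?_, ?_⟩
  · rw [← hcomm]; group
  · intro x hx hxz
    by_cases hx1 : x = 1
    · exact Or.inl hx1
    · right
      have hxC : x ∈ C := by
        refine ⟨hx, ?_⟩
        show x ∈ centralizer ({z} : Set G)
        rw [mem_centralizer_singleton_iff]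
        calc x * z = (z * x * z⁻¹) * z := by rw [hxz]
          _ = z * x := by group
      have h5 := huniq ⟨x, hxC⟩ (fun h6 => hx1 (congrArg Subtype.val h6))
      exact congrArg Subtype.val h5

theorem s_trans {A : Sylow 2 G} {s : G} (hs : s ∈ NN A) (ho : orderOf s = 7) {a : G} (ha : a ∈ (A : Subgroup G))
    (ha1 : a ≠ 1) : ∀ x ∈ (A : Subgroup G), x ≠ 1 → ∃ t ∈ zpowers s, x = t * a * t⁻¹ := by
  haveI : Fact (Nat.Prime 7) := ⟨by norm_num⟩
  have ha2 := h.elem A a ha
  have hconj : ∀ j : ℕ, s ^ j * a * (s ^ j)⁻¹ ∈ (A : Subgroup G) ∧ s ^ j * a * (s ^ j)⁻¹ ≠ 1 := by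
    intro j
    constructor
    · exact (Subgroup.mem_normalizer_iff.1 (pow_mem hs j) a).1 ha
    · intro h5
      apply ha1
      have : a = (s ^ j)⁻¹ * (s ^ j * a * (s ^ j)⁻¹) * s ^ j := by group
      rw [this, h5]
      group
  let f : Fin 7 → ↥({v | v ∈ (A : Subgroup G) ∧ v ≠ 1} : Set G) := fun j => ⟨s ^ j.1 * a * (s ^ j.1)⁻¹, hconj j.1⟩
  have hkey : ∀ i j : ℕ, i < j → j < 7 → s ^ i * a * (s ^ i)⁻¹ ≠ s ^ j * a * (s ^ j)⁻¹ := by
    intro i j hij hj h5
    have hk : s ^ j = s ^ i * s ^ (j - i) := by rw [← pow_add]; congr 1; omega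
    rw [hk, mul_inv_rev] at h5
    have h6 : s ^ (j - i) * a = a * s ^ (j - i) := by
      generalize s ^ (j - i) = t at h5 ⊢
      generalize s ^ i = u at h5 ⊢
      have h7 : a = t * a * t⁻¹ := by
        have h8 : u⁻¹ * (u * a * u⁻¹) * u = u⁻¹ * (u * t * a * (t⁻¹ * u⁻¹)) * u := by rw [h5]
        have e1 : u⁻¹ * (u * a * u⁻¹) * u = a := by group
        have e2 : u⁻¹ * (u * t * a * (t⁻¹ * u⁻¹)) * u = t * a * t⁻¹ := by group
        rw [e1, e2] at h8
        exact h8
      calc t * a = (t * a * t⁻¹) * t := by group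
        _ = a * t := by rw [← h7]
    have hord : orderOf (s ^ (j - i)) = 7 := by
      refine orderOf_eq_prime ?_ ?_
      · rw [← pow_mul, mul_comm, pow_mul, ← ho, pow_orderOf_eq_one, one_pow]
      · exact pow_ne_one_of_lt_orderOf (by omega) (by rw [ho]; omega)
    exact no_commute h ha2 ha1 hord h6
  have hf : Function.Injective f := by
    intro i j hij
    have h5 : s ^ i.1 * a * (s ^ i.1)⁻¹ = s ^ j.1 * a * (s ^ j.1)⁻¹ := congrArg Subtype.val hij
    rcases lt_trichotomy i.1 j.1 with hlt | heq | hgt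
    · exact absurd h5 (hkey _ _ hlt j.2)
    · exact Fin.ext heq
    · exact absurd h5.symm (hkey _ _ hgt i.2)
  have hb := hf.bijective_of_nat_card_le (by rw [card_sharp h A, Nat.card_fin])
  intro x hx hx1
  obtain ⟨j, hj⟩ := hb.2 ⟨x, hx, hx1⟩
  refine ⟨s ^ j.1, pow_mem (mem_zpowers s) _, ?_⟩
  exact (congrArg Subtype.val hj).symm

/-- The three-point stabilizer is the group generated by `z`. -/
theorem three_stab {A B D : Sylow 2 G} (hAB : A ≠ B) (hAD : A ≠ D) (hBD : B ≠ D) {z : G} (hzA : z ∈ NN A)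
    (hzB : z ∈ NN B) (hzD : z ∈ NN D) (hz3 : orderOf z = 3) {g : G} (hgA : g ∈ NN A) (hgB : g ∈ NN B)
    (hgD : g ∈ NN D) : g ∈ zpowers z := by
  haveI : Fact (Nat.Prime 7) := ⟨by norm_num⟩
  let K := NN A ⊓ NN B ⊓ NN D
  have h1 : Nat.card K ∣ 21 :=
    (Subgroup.card_dvd_of_le (inf_le_left : K ≤ NN A ⊓ NN B)).trans (card_inter_dvd h hAB)
  have h7 : ¬ 7 ∣ Nat.card K := by
    intro h8
    obtain ⟨t, ht⟩ := exists_prime_orderOf_dvd_card' (G := K) 7 h8
    have ht' : orderOf (t : G) = 7 := by rw [Subgroup.orderOf_coe]; exact ht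
    exact three_pts h hAB hAD hBD t.2.1.1 t.2.1.2 t.2.2 ht'
  have hzK : z ∈ K := ⟨⟨hzA, hzB⟩, hzD⟩
  have h3 : 3 ∣ Nat.card K := by
    have := Subgroup.orderOf_dvd_natCard K hzK
    rwa [hz3] at this
  have hc : Nat.card K = 3 := by
    have : Nat.card K ∈ Nat.divisors 21 := Nat.mem_divisors.2 ⟨h1, by norm_num⟩
    have h2 : Nat.divisors 21 = {1, 3, 7, 21} := by decide
    rw [h2] at this
    simp only [Finset.mem_insert, Finset.mem_singleton] at this
    omega
  have hle : zpowers z ≤ K := zpowers_le.2 hzK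
  have heq : zpowers z = K := Subgroup.eq_of_le_of_card_ge hle (by rw [hc, Nat.card_zpowers, hz3])
  rw [heq]
  exact ⟨⟨hgA, hgB⟩, hgD⟩

/-- The relation `(a w)³ = 1`. -/
theorem cube_one {A B : Sylow 2 G} (hAB : A ≠ B) {z : G} (hzA : z ∈ NN A) (hzB : z ∈ NN B) (hz3 : orderOf z = 3)
    {a : G} (ha : a ∈ (A : Subgroup G)) (ha1 : a ≠ 1) (haz : z * a * z⁻¹ = a)
    (hfix : ∀ x ∈ (A : Subgroup G), z * x * z⁻¹ = x → x = 1 ∨ x = a) {w : G} (hw2 : w ^ 2 = 1)
    (hwA : w • A = B) (hwB : w • B = A) (hzw : z * w = w * z) : (a * w) ^ 3 = 1 := by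
  have ha2 := h.elem A a ha
  have haa : a * a = 1 := by rw [← pow_two]; exact ha2
  have hww : w * w = 1 := by rw [← pow_two]; exact hw2
  have hai := inv_eq_of_sq ha2
  have hwi := inv_eq_of_sq hw2
  have hza : z * a = a * z := by
    calc z * a = (z * a * z⁻¹) * z := by group
      _ = a * z := by rw [haz]
  have haN : a ∈ NN A := Subgroup.le_normalizer ha
  have haA : a • A = A := mem_NN_iff.1 haN
  set D : Sylow 2 G := a • B with hD
  have hzD : z • D = D := by
    rw [hD, smul_smul, hza, mul_smul, mem_NN_iff.1 hzB]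
  have haD : a • D = B := by rw [hD, smul_smul, haa, one_smul]
  have hDA : A ≠ D := by
    intro h5
    apply hAB
    rw [← haD, ← h5, haA]
  have hDB : B ≠ D := by
    intro h5
    have h6 : a ∈ NN B := by rw [mem_NN_iff, ← hD, ← h5]
    exact hAB (mem_unique h ha (mem_of_mem_norm ha2 h6) ha1)
  have hfixz : ∀ E : Sylow 2 G, z • E = E → E = A ∨ E = B ∨ E = D := by
    intro E hE
    by_cases hEA : E = A
    · exact Or.inl hEA
    · right
      obtain ⟨x, hx, hxE⟩ := A_trans h hAB (Ne.symm hEA)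
      have hzi : z⁻¹ • B = B := by
        have : z⁻¹ ∈ NN B := inv_mem hzB
        exact mem_NN_iff.1 this
      have h1 : (z * x * z⁻¹) • B = x • B := by
        rw [mul_smul, mul_smul, hzi, hxE, hE]
      have h2 : x⁻¹ * (z * x * z⁻¹) ∈ NN B := by
        rw [mem_NN_iff, mul_smul, h1, smul_smul]
        simp
      have h3 : z * x * z⁻¹ ∈ (A : Subgroup G) := (Subgroup.mem_normalizer_iff.1 hzA x).1 hx
      have h4 := inter_triv h hAB (mul_mem (inv_mem hx) h3) h2
      have h5 : z * x * z⁻¹ = x := by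
        have h6 : x * (x⁻¹ * (z * x * z⁻¹)) = x := by rw [h4, mul_one]
        simpa using h6
      rcases hfix x hx h5 with h6 | h6
      · left
        rw [← hxE, h6, one_smul]
      · right
        rw [← hxE, h6]
  have hwD : w • D = D := by
    have h1 : z • (w • D) = w • D := by
      rw [smul_smul, hzw, mul_smul, hzD]
    rcases hfixz _ h1 with h2 | h2 | h2
    · exfalso
      apply hDB
      have h3 : w • (w • D) = D := by rw [smul_smul, hww, one_smul]
      rw [h2, hwA] at h3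
      exact h3
    · exfalso
      apply hDA
      have h3 : w • (w • D) = D := by rw [smul_smul, hww, one_smul]
      rw [h2, hwB] at h3
      exact h3
    · exact h2
  obtain ⟨c, hc⟩ : ∃ c, c = a * w := ⟨_, rfl⟩
  rw [← hc]
  have hcA : c • A = D := by rw [hc, mul_smul, hwA]
  have hcB : c • B = A := by rw [hc, mul_smul, hwB, haA]
  have hcD : c • D = B := by rw [hc, mul_smul, hwD, haD]
  have h3 : c ^ 3 = c * (c * c) := by rw [pow_succ, pow_two, mul_assoc]
  have hc3A : c ^ 3 ∈ NN A := by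
    rw [mem_NN_iff, h3, mul_smul, mul_smul, hcA, hcD, hcB]
  have hc3B : c ^ 3 ∈ NN B := by
    rw [mem_NN_iff, h3, mul_smul, mul_smul, hcB, hcA, hcD]
  have hc3D : c ^ 3 ∈ NN D := by
    rw [mem_NN_iff, h3, mul_smul, mul_smul, hcD, hcB, hcA]
  have hzD' : z ∈ NN D := mem_NN_iff.2 hzD
  have hmem := three_stab h hAB hDA hDB hzA hzB hzD' hz3 hc3A hc3B hc3D
  obtain ⟨i, hi0⟩ := (mem_powers_iff_mem_zpowers).2 hmem
  have hi : z ^ i = c ^ 3 := hi0
  have hcinv : a * c * a⁻¹ = c⁻¹ := by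
    rw [hc, mul_inv_rev, hai, hwi]
    calc a * (a * w) * a = (a * a) * w * a := by group
      _ = w * a := by rw [haa, one_mul]
  have h4 : a * c ^ 3 * a⁻¹ = (c ^ 3)⁻¹ := by
    rw [← conj_pow', hcinv, inv_pow]
  have hcomm : Commute a (z ^ i) := (show Commute a z from hza.symm).pow_right i
  have h5 : z ^ i = (z ^ i)⁻¹ := by
    have h6 : a * z ^ i * a⁻¹ = z ^ i := by rw [hcomm.eq]; group
    rw [hi] at h6 ⊢
    rw [h4] at h6
    exact h6.symm
  have h6 : (z ^ i) ^ 2 = 1 := by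
    calc (z ^ i) ^ 2 = z ^ i * z ^ i := pow_two _
      _ = (z ^ i)⁻¹ * z ^ i := by rw [← h5]
      _ = 1 := inv_mul_cancel _
  have h7 : (z ^ i) ^ 3 = 1 := by
    rw [← pow_mul, mul_comm, pow_mul, ← hz3, pow_orderOf_eq_one, one_pow]
  have h8 : (z ^ i) ^ (Nat.gcd 2 3) = 1 := pow_gcd_eq_one.2 ⟨h6, h7⟩
  have h9 : Nat.gcd 2 3 = 1 := by norm_num
  rw [h9, pow_one, hi] at h8
  exact h8

end Cfsg.Agent.Lib.JZD
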