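import Mathlib
import Cfsg.Agent.Lib.JZD

/-!
# Groups with the local structure `E8Str`: a subgroup of order at most `504`.
-/

set_option autoImplicit false
set_option linter.unusedVariables false
set_option linter.unusedSectionVars false
set_option linter.style.haveILetI false

namespace Cfsg.Agent.Lib.JZE

open Subgroup

variable {G : Type*} [Group G] [Finite G]

/-- The set `B ∪ B w B`. -/
def SS (A : Subgroup G) (s w : G) : Set G :=
  {g | (∃ x ∈ A, ∃ y ∈ zpowers s, g = x * y) ∨ (∃ x ∈ A, ∃ x' ∈ A, ∃ y ∈ zpowers s, g = x * w * x' * y)}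

/-- The subgroup generated by `A`, `s`, `w`. -/
def LL (A : Subgroup G) (s w : G) : Subgroup G := closure ((A : Set G) ∪ {s, w})

section
variable {A : Subgroup G} {s w a : G} (hsA : s ∈ normalizer (A : Set G)) (hww : w * w = 1)
  (hws : w * s * w⁻¹ = s⁻¹) (haw : w * a * w = a * w * a) (ha : a ∈ A)
  (hatr : ∀ x ∈ A, x ≠ 1 → ∃ t ∈ zpowers s, x = t * a * t⁻¹)

include hsA in
theorem Y_A {y x : G} (hy : y ∈ zpowers s) (hx : x ∈ A) : y * x * y⁻¹ ∈ A :=
  (Subgroup.mem_normalizer_iff.1 ((zpowers_le.2 hsA) hy) x).1 hx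

include hws in
theorem Y_w {y : G} (hy : y ∈ zpowers s) : w * y * w⁻¹ = y⁻¹ := by
  obtain ⟨k, rfl⟩ := hy
  show w * s ^ k * w⁻¹ = (s ^ k)⁻¹
  rw [← conj_zpow, hws, inv_zpow]

include hww in
theorem w_inv : w⁻¹ = w := inv_eq_of_mul_eq_one_left hww

include hww hws in
theorem Y_w' {y : G} (hy : y ∈ zpowers s) : y * w = w * y⁻¹ := by
  have h1 := Y_w hws (inv_mem hy)
  rw [inv_inv, w_inv hww] at h1
  calc y * w = (w * y⁻¹ * w) * w := by rw [h1]
    _ = w * y⁻¹ * (w * w) := by group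
    _ = w * y⁻¹ := by rw [hww, mul_one]

include hsA in
theorem mul_A {g x : G} (hg : g ∈ SS A s w) (hx : x ∈ A) : g * x ∈ SS A s w := by
  rcases hg with ⟨x1, h1, y, hy, rfl⟩ | ⟨x1, h1, x2, h2, y, hy, rfl⟩
  · refine Or.inl ⟨x1 * (y * x * y⁻¹), mul_mem h1 (Y_A hsA hy hx), y, hy, by group⟩
  · refine Or.inr ⟨x1, h1, x2 * (y * x * y⁻¹), mul_mem h2 (Y_A hsA hy hx), y, hy, by group⟩

theorem mul_Y {g y' : G} (hg : g ∈ SS A s w) (hy' : y' ∈ zpowers s) : g * y' ∈ SS A s w := by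
  rcases hg with ⟨x1, h1, y, hy, rfl⟩ | ⟨x1, h1, x2, h2, y, hy, rfl⟩
  · exact Or.inl ⟨x1, h1, y * y', mul_mem hy hy', by group⟩
  · exact Or.inr ⟨x1, h1, x2, h2, y * y', mul_mem hy hy', by group⟩

include hsA hww hws haw ha hatr in
theorem mul_w {g : G} (hg : g ∈ SS A s w) : g * w ∈ SS A s w := by
  rcases hg with ⟨x1, h1, y, hy, rfl⟩ | ⟨x1, h1, x2, h2, y, hy, rfl⟩
  · refine Or.inr ⟨x1, h1, 1, one_mem _, y⁻¹, inv_mem hy, ?_⟩
    rw [mul_one, mul_assoc, Y_w' hww hws hy, mul_assoc]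
  · by_cases hx2 : x2 = 1
    · subst hx2
      refine Or.inl ⟨x1, h1, y⁻¹, inv_mem hy, ?_⟩
      calc x1 * w * 1 * y * w = x1 * w * (y * w) := by group
        _ = x1 * w * (w * y⁻¹) := by rw [Y_w' hww hws hy]
        _ = x1 * (w * w) * y⁻¹ := by group
        _ = x1 * y⁻¹ := by rw [hww, mul_one]
    · obtain ⟨t, ht, rfl⟩ := hatr x2 h2 hx2
      have e3 := Y_w' hww hws hy
      have e4 := Y_w' hww hws (inv_mem ht)
      rw [inv_inv] at e4
      have e2 := Y_w' hww hws ht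
      have e1 : w * t = t⁻¹ * w := e4.symm
      have e5 : t * w * t = w := by
        rw [e2]
        group
      refine Or.inr ⟨x1 * (t⁻¹ * a * t), mul_mem h1 ?_, t * a * t⁻¹, h2, t * t * y⁻¹, ?_, ?_⟩
      · have := Y_A hsA (inv_mem ht) ha
        rwa [inv_inv] at this
      · exact mul_mem (mul_mem ht ht) (inv_mem hy)
      · calc x1 * w * (t * a * t⁻¹) * y * w = x1 * (w * t) * a * t⁻¹ * (y * w) := by
              simp only [mul_assoc]
          _ = x1 * (t⁻¹ * w) * a * t⁻¹ * (w * y⁻¹) := by rw [e1, e3]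
          _ = x1 * t⁻¹ * (w * a * (t⁻¹ * w)) * y⁻¹ := by simp only [mul_assoc]
          _ = x1 * t⁻¹ * (w * a * (w * t)) * y⁻¹ := by rw [e4]
          _ = x1 * t⁻¹ * ((w * a * w) * t) * y⁻¹ := by simp only [mul_assoc]
          _ = x1 * t⁻¹ * ((a * w * a) * t) * y⁻¹ := by rw [haw]
          _ = x1 * t⁻¹ * a * (t * w * t) * a * t * y⁻¹ := by
              rw [e5]
              simp only [mul_assoc]
          _ = x1 * (t⁻¹ * a * t) * w * (t * a * t⁻¹) * (t * t * y⁻¹) := by group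

include hsA hww hws haw ha hatr in
theorem LL_sub {g : G} (hg : g ∈ LL A s w) : g ∈ SS A s w := by
  have hmul : ∀ g y, g ∈ SS A s w → y ∈ ((A : Set G) ∪ {s, w}) → g * y ∈ SS A s w ∧ g * y⁻¹ ∈ SS A s w := by
    intro g y hg hy
    rcases hy with hy | hy | hy
    · exact ⟨mul_A hsA hg hy, mul_A hsA hg (inv_mem hy)⟩
    · subst hy
      exact ⟨mul_Y hg (mem_zpowers _), mul_Y hg (inv_mem (mem_zpowers _))⟩
    · have hy' : y = w := hy
      subst hy'
      have := mul_w hsA hww hws haw ha hatr hg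
      rw [w_inv hww]
      exact ⟨this, this⟩
  have h1 : (1 : G) ∈ SS A s w := Or.inl ⟨1, one_mem _, 1, one_mem _, by simp⟩
  refine Subgroup.closure_induction_right (p := fun g _ => g ∈ SS A s w) h1 ?_ ?_ hg
  · intro x hx y hy hp
    exact (hmul x y hp hy).1
  · intro x hx y hy hp
    exact (hmul x y hp hy).2

include hsA hww hws haw ha hatr in
theorem card_LL_le (h8 : Nat.card A = 8) (h7 : orderOf s = 7) : Nat.card (LL A s w) ≤ 504 := by
  let Y := zpowers s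
  have hY : Nat.card Y = 7 := by rw [Nat.card_zpowers, h7]
  let f1 : ↥A × ↥Y → G := fun p => p.1 * p.2
  let f2 : ↥A × ↥A × ↥Y → G := fun p => p.1 * w * p.2.1 * p.2.2
  have hsub : (LL A s w : Set G) ⊆ Set.range f1 ∪ Set.range f2 := by
    intro g hg
    rcases LL_sub hsA hww hws haw ha hatr hg with ⟨x, hx, y, hy, rfl⟩ | ⟨x, hx, x', hx', y, hy, rfl⟩
    · exact Or.inl ⟨(⟨x, hx⟩, ⟨y, hy⟩), rfl⟩
    · exact Or.inr ⟨(⟨x, hx⟩, ⟨x', hx'⟩, ⟨y, hy⟩), rfl⟩
  have h1 : (Set.range f1).ncard ≤ 56 := by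
    rw [← Set.image_univ]
    refine (Set.ncard_image_le (Set.toFinite _)).trans ?_
    rw [Set.ncard_univ, Nat.card_prod, h8, hY]
  have h2 : (Set.range f2).ncard ≤ 448 := by
    rw [← Set.image_univ]
    refine (Set.ncard_image_le (Set.toFinite _)).trans ?_
    rw [Set.ncard_univ, Nat.card_prod, Nat.card_prod, h8, hY]
  have h3 := Set.ncard_le_ncard hsub (Set.toFinite _)
  have h4 := Set.ncard_union_le (Set.range f1) (Set.range f2)
  rw [← Nat.card_coe_set_eq] at h3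
  have h5 : Nat.card ↥(LL A s w : Set G) = Nat.card (LL A s w) := rfl
  rw [h5] at h3
  omega

end

end Cfsg.Agent.Lib.JZE
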