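import Mathlib
import Cfsg.Agent.Lib.JZE

/-!
# Groups with the local structure `E8Str`: the normal simple subgroup of order `504`.
-/

set_option autoImplicit false
set_option linter.unusedVariables false
set_option linter.unusedSectionVars false
set_option linter.style.haveILetI false

namespace Cfsg.Agent.Lib.JZF

open Subgroup Cfsg.Agent.Lib.JZB Cfsg.Agent.Lib.JZC Cfsg.Agent.Lib.JZD Cfsg.Agent.Lib.JZE
open Cfsg.Agent.Lib.SmallGroups2 (mem_smul_sylow_iff)

variable {G : Type*} [Group G] [Finite G]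

/-- The chosen elements. -/
structure Cfg (A B : Sylow 2 G) (s z a w : G) : Prop where
  hAB : A ≠ B
  hsA : s ∈ NN A
  hsB : s ∈ NN B
  ho : orderOf s = 7
  hzA : z ∈ NN A
  hzB : z ∈ NN B
  hz3 : orderOf z = 3
  hj : ∃ j : ℕ, z⁻¹ * s * z = s ^ j
  ha : a ∈ (A : Subgroup G)
  ha1 : a ≠ 1
  haz : z * a * z⁻¹ = a
  hw2 : w ^ 2 = 1
  hw1 : w ≠ 1
  hwA : w • A = B
  hwB : w • B = A
  hzw : z * w = w * z
  hws : w * s * w⁻¹ = s⁻¹
  hcube : (a * w) ^ 3 = 1

theorem comm_of_conj {z a : G} (h : z * a * z⁻¹ = a) : Commute z a := by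
  show z * a = a * z
  calc z * a = (z * a * z⁻¹) * z := by group
    _ = a * z := by rw [h]

theorem exists_cfg (h : E8Str G) : ∃ (A B : Sylow 2 G) (s z a w : G), Cfg A B s z a w := by
  let A : Sylow 2 G := default
  obtain ⟨B, hAB⟩ := exists_ne h A
  obtain ⟨s, hsA, hsB, ho⟩ := exists_s h hAB
  obtain ⟨z, hzA, hzB, hz3, hj⟩ := exists_z h hAB hsA hsB ho
  obtain ⟨a, ha, ha1, haz, hfix⟩ := exists_fix h hzA hz3
  obtain ⟨b, hb, hb1, hbz, -⟩ := exists_fix h hzB hz3
  obtain ⟨w, hw2, hw1, hwA, hwB, -, hwz⟩ := exists_swap h hAB ha ha1 hb hb1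
  have hzw : Commute z w := hwz z (comm_of_conj haz) (comm_of_conj hbz)
  have hws := inverts h hAB hsA hsB ho hw2 hw1 hwA hwB
  have hcube := cube_one h hAB hzA hzB hz3 ha ha1 haz hfix hw2 hwA hwB hzw
  exact ⟨A, B, s, z, a, w, ⟨hAB, hsA, hsB, ho, hzA, hzB, hz3, hj, ha, ha1, haz, hw2, hw1, hwA, hwB, hzw, hws, hcube⟩⟩

section

variable {A B : Sylow 2 G} {s z a w : G} (h : E8Str G) (c : Cfg A B s z a w)

/-- The subgroup `L`. -/
abbrev LA (A : Sylow 2 G) (s w : G) : Subgroup G := LL (A : Subgroup G) s w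

theorem A_le : (A : Subgroup G) ≤ LA A s w := fun x hx => subset_closure (Or.inl hx)

theorem s_mem : s ∈ LA A s w := subset_closure (Or.inr (Or.inl rfl))

theorem w_mem : w ∈ LA A s w := subset_closure (Or.inr (Or.inr rfl))

include c

theorem hww : w * w = 1 := by rw [← pow_two]; exact c.hw2

include h

theorem haw : w * a * w = a * w * a := by
  have ha2 := h.elem A a c.ha
  have hai := inv_eq_of_sq ha2
  have hwi := inv_eq_of_sq c.hw2
  have h3 : a * (w * a * w) * (a * w) = 1 := by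
    have h4 := c.hcube
    rw [pow_succ, pow_two] at h4
    rw [← h4]
    group
  have h2 : w * a * w = a⁻¹ * (a * w)⁻¹ := by
    calc w * a * w = a⁻¹ * (a * (w * a * w) * (a * w)) * (a * w)⁻¹ := by group
      _ = a⁻¹ * (a * w)⁻¹ := by rw [h3]; group
  rw [h2, mul_inv_rev, hai, hwi]
  group

theorem hatr : ∀ x ∈ (A : Subgroup G), x ≠ 1 → ∃ t ∈ zpowers s, x = t * a * t⁻¹ :=
  s_trans h c.hsA c.ho c.ha c.ha1

theorem card_L_le : Nat.card (LA A s w) ≤ 504 :=
  card_LL_le c.hsA (hww c) c.hws (haw h c) c.ha (hatr h c) (h.card8 A) c.ho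

omit h c in
theorem conj_L {g : G} (hgA : g ∈ NN A) (hgs : g * s * g⁻¹ ∈ LA A s w) (hgw : g * w * g⁻¹ ∈ LA A s w) :
    ∀ l ∈ LA A s w, g * l * g⁻¹ ∈ LA A s w := by
  intro l hl
  refine Subgroup.closure_induction (p := fun x _ => g * x * g⁻¹ ∈ LA A s w) ?_ ?_ ?_ ?_ hl
  · intro x hx
    rcases hx with hx | hx | hx
    · exact A_le ((Subgroup.mem_normalizer_iff.1 hgA x).1 hx)
    · have hx' : x = s := hx
      rw [hx']
      exact hgs
    · have hx' : x = w := hx
      rw [hx']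
      exact hgw
  · simp
  · intro x y _ _ hx hy
    have : g * (x * y) * g⁻¹ = (g * x * g⁻¹) * (g * y * g⁻¹) := by group
    rw [this]
    exact mul_mem hx hy
  · intro x _ hx
    have : g * x⁻¹ * g⁻¹ = (g * x * g⁻¹)⁻¹ := by group
    rw [this]
    exact inv_mem hx

theorem z_conj : ∀ l ∈ LA A s w, z * l * z⁻¹ ∈ LA A s w := by
  obtain ⟨j, hj⟩ := c.hj
  have hz31 : z ^ 3 = 1 := by rw [← c.hz3]; exact pow_orderOf_eq_one z
  have hzi : z⁻¹ = z * z := by
    rw [inv_eq_iff_mul_eq_one, ← hz31]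
    rw [pow_succ, pow_two, mul_assoc]
  apply conj_L c.hzA
  · have h1 : z * s * z⁻¹ = (s ^ j) ^ j := by
      have h2 := conj_pow' z⁻¹ s j
      rw [inv_inv, hj] at h2
      rw [h2]
      calc z * s * z⁻¹ = (z * z) * (z * z) * s * (z * z) := by
            rw [← hzi]
            have : z⁻¹ * z⁻¹ = z := by
              rw [hzi]
              calc z * z * (z * z) = z ^ 3 * z := by rw [pow_succ, pow_two]; group
                _ = z := by rw [hz31, one_mul]
            rw [this]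
        _ = z⁻¹ * (z⁻¹ * s * z) * z := by
            rw [hzi]
            have : z * z * (z * z) * s * (z * z) = z * z * (z * z * s * z) * z := by group
            rw [this]
        _ = z⁻¹ * s ^ j * z := by rw [hj]
    rw [h1]
    exact pow_mem (pow_mem s_mem _) _
  · have : z * w * z⁻¹ = w := by rw [c.hzw]; group
    rw [this]
    exact w_mem

theorem z_inv_conj : ∀ l ∈ LA A s w, z⁻¹ * l * z ∈ LA A s w := by
  obtain ⟨j, hj⟩ := c.hj
  intro l hl
  have h1 := conj_L (g := z⁻¹) (A := A) (s := s) (w := w) (inv_mem c.hzA) (by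
    rw [inv_inv, hj]
    exact pow_mem s_mem _) (by
    rw [inv_inv]
    have : z⁻¹ * w * z = w := by
      have h2 : w * z = z * w := c.hzw.symm
      rw [mul_assoc, h2]
      group
    rw [this]
    exact w_mem) l hl
  rwa [inv_inv] at h1

theorem decomp (g : G) : ∃ l ∈ LA A s w, ∃ m ∈ NN A, g = l * m := by
  by_cases hg : g • A = A
  · exact ⟨1, one_mem _, g, mem_NN_iff.2 hg, by simp⟩
  · obtain ⟨x, hx, hxg⟩ := A_trans h c.hAB (Ne.symm hg)
    refine ⟨x * w, mul_mem (A_le hx) w_mem, (x * w)⁻¹ * g, ?_, by group⟩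
    have hwi := inv_eq_of_sq c.hw2
    rw [mem_NN_iff, mul_smul, ← hxg, mul_inv_rev, hwi, mul_smul, inv_smul_smul, c.hwB]

theorem NN_le : NN A ≤ LA A s w ⊔ zpowers z := by
  set K := LA A s w ⊔ zpowers z with hK
  have hAK : (A : Subgroup G) ≤ K := A_le.trans le_sup_left
  have hsK : s ∈ K := mem_sup_left s_mem
  have hzK : z ∈ K := mem_sup_right (mem_zpowers z)
  let R := K ⊓ NN A
  have h8 : 8 ∣ Nat.card R := by
    rw [← h.card8 A]
    exact Subgroup.card_dvd_of_le (le_inf hAK Subgroup.le_normalizer)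
  have h7 : 7 ∣ Nat.card R := by
    have := Subgroup.orderOf_dvd_natCard R (⟨hsK, c.hsA⟩ : s ∈ R)
    rwa [c.ho] at this
  have h3 : 3 ∣ Nat.card R := by
    have := Subgroup.orderOf_dvd_natCard R (⟨hzK, c.hzA⟩ : z ∈ R)
    rwa [c.hz3] at this
  have h56 : 8 * 7 ∣ Nat.card R := Nat.Coprime.mul_dvd_of_dvd_of_dvd (by norm_num) h8 h7
  have h168 : 8 * 7 * 3 ∣ Nat.card R := Nat.Coprime.mul_dvd_of_dvd_of_dvd (by norm_num) h56 h3
  have hpos : 0 < Nat.card R := Nat.card_pos
  have hle := Nat.le_of_dvd hpos h168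
  have heq : R = NN A := Subgroup.eq_of_le_of_card_ge inf_le_right (by rw [card_NN h A]; omega)
  intro g hg
  rw [← heq] at hg
  exact hg.1

theorem K_top : LA A s w ⊔ zpowers z = ⊤ := by
  rw [eq_top_iff]
  intro g _
  obtain ⟨l, hl, m, hm, rfl⟩ := decomp h c g
  exact mul_mem (mem_sup_left hl) (NN_le h c hm)

theorem L_normal : (LA A s w).Normal := by
  rw [← Subgroup.normalizer_eq_top_iff, eq_top_iff, ← K_top h c]
  refine sup_le Subgroup.le_normalizer ?_
  rw [zpowers_le, Subgroup.mem_normalizer_iff]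
  intro l
  constructor
  · exact z_conj h c l
  · intro h1
    have h2 := z_inv_conj h c _ h1
    have h3 : z⁻¹ * (z * l * z⁻¹) * z = l := by group
    rwa [h3] at h2

theorem card_L : Nat.card (LA A s w) = 504 := by
  haveI := L_normal h c
  have hz31 : z ^ 3 = 1 := by rw [← c.hz3]; exact pow_orderOf_eq_one z
  let φ := QuotientGroup.mk' (LA A s w)
  have htop : zpowers (φ z) = ⊤ := by
    rw [eq_top_iff]
    intro q _
    obtain ⟨g, rfl⟩ := QuotientGroup.mk'_surjective _ q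
    have hg : g ∈ zpowers z ⊔ LA A s w := by
      rw [sup_comm, K_top h c]
      trivial
    obtain ⟨y, hy, l, hl, rfl⟩ := Subgroup.mem_sup_of_normal_right.1 hg
    have h1 : φ l = 1 := (QuotientGroup.eq_one_iff _).2 hl
    rw [map_mul, h1, mul_one]
    obtain ⟨k, rfl⟩ := hy
    show φ (z ^ k) ∈ _
    rw [map_zpow]
    exact zpow_mem (mem_zpowers _) k
  have hcard : Nat.card (G ⧸ LA A s w) = orderOf (φ z) := by
    rw [← Nat.card_zpowers, htop]
    exact (Nat.card_congr Subgroup.topEquiv.toEquiv).symm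
  have hd : orderOf (φ z) ∣ 3 := orderOf_dvd_of_pow_eq_one (by rw [← map_pow, hz31, map_one])
  have hle : (LA A s w).index ≤ 3 := by
    rw [Subgroup.index_eq_card, hcard]
    exact Nat.le_of_dvd (by norm_num) hd
  have h1 := Subgroup.card_mul_index (LA A s w)
  rw [card_G h] at h1
  have h2 := card_L_le h c
  nlinarith

theorem cent_triv (g : G) (hg : ∀ l ∈ LA A s w, g * l = l * g) : g = 1 := by
  have hgA : g ∈ (A : Subgroup G) := h.self_cent A g (fun x hx => hg x (A_le hx))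
  by_contra hg1
  exact no_commute h (h.elem A g hgA) hg1 c.ho (hg s s_mem).symm

end

end Cfsg.Agent.Lib.JZF
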