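import Mathlib
import Cfsg.Agent.Lib.JZA

/-!
# Orbit of `J` on a Sylow `2`-subgroup `E_8` (helper for the `2 × A_m` centralizer theorem)
-/

set_option autoImplicit false
set_option linter.unusedVariables false
set_option linter.unusedSectionVars false

namespace Cfsg.Agent.Lib.JZOrb

open Subgroup
open scoped Pointwise

variable {G : Type*} [Group G]

theorem el_comm {x y : G} (hx : x ^ 2 = 1) (hy : y ^ 2 = 1) (hxy : (x * y) ^ 2 = 1) :
    x * y = y * x := by
  have hx' : x⁻¹ = x := inv_eq_of_mul_eq_one_left (by rw [← pow_two]; exact hx)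
  have hy' : y⁻¹ = y := inv_eq_of_mul_eq_one_left (by rw [← pow_two]; exact hy)
  have h : (x * y)⁻¹ = x * y := inv_eq_of_mul_eq_one_left (by rw [← pow_two]; exact hxy)
  rw [mul_inv_rev, hx', hy'] at h
  exact h.symm

theorem conj_of_smul {H : Type*} [Group H] {p : ℕ} (P Q : Sylow p H) (g : H) (hg : g • P = Q)
    {x : H} (hx : x ∈ (P : Subgroup H)) : g * x * g⁻¹ ∈ (Q : Subgroup H) := by
  rw [← hg, Sylow.coe_subgroup_smul]
  exact ⟨x, hx, rfl⟩

theorem norm_of_conj {H : Type*} [Group H] [Finite H] (K : Subgroup H) (g : H)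
    (h : ∀ y ∈ K, g * y * g⁻¹ ∈ K) : g ∈ normalizer (K : Set H) := by
  have h1 : K.map (MulAut.conj g).toMonoidHom = K := by
    apply Subgroup.eq_of_le_of_card_ge
    · rintro _ ⟨y, hy, rfl⟩
      exact h y hy
    · rw [Subgroup.card_map_of_injective (MulAut.conj g).injective]
  rw [Subgroup.mem_normalizer_iff]
  intro y
  constructor
  · exact h y
  · intro hy
    rw [← h1] at hy
    obtain ⟨a, ha, h2⟩ := hy
    have h4 : g * a * g⁻¹ = g * y * g⁻¹ := h2
    have : a = y := by simpa using h4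
    rwa [← this]

/-- Burnside: conjugate elements of an abelian Sylow subgroup are conjugate in its normalizer. -/
theorem exists_norm_conj [Finite G] (P : Sylow 2 G) {J x0 g : G} (hg : x0 = g⁻¹ * J * g)
    (hJc : ∀ x ∈ (P : Subgroup G), x * J = J * x)
    (hx0c : ∀ x ∈ (P : Subgroup G), x * x0 = x0 * x) :
    ∃ n ∈ normalizer ((P : Subgroup G) : Set G), n * J * n⁻¹ = x0 := by
  haveI : Fact (Nat.Prime 2) := ⟨Nat.prime_two⟩
  let C : Subgroup G := centralizer ({x0} : Set G)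
  let Q : Sylow 2 G := g⁻¹ • P
  have hP : (P : Subgroup G) ≤ C := fun x hx => by
    show x ∈ centralizer ({x0} : Set G)
    rw [mem_centralizer_singleton_iff]
    exact hx0c x hx
  have hQ : (Q : Subgroup G) ≤ C := by
    intro z hz
    have hz' : z ∈ MulAut.conj g⁻¹ • (P : Subgroup G) := by
      have h0 : ((g⁻¹ • P : Sylow 2 G) : Subgroup G) = MulAut.conj g⁻¹ • (P : Subgroup G) :=
        Sylow.coe_subgroup_smul
      rw [← h0]
      exact hz
    obtain ⟨y, hy, rfl⟩ := hz'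
    show _ ∈ centralizer ({x0} : Set G)
    rw [mem_centralizer_singleton_iff]
    change g⁻¹ * y * g⁻¹⁻¹ * x0 = x0 * (g⁻¹ * y * g⁻¹⁻¹)
    rw [hg, inv_inv]
    have h1 := hJc y hy
    calc g⁻¹ * y * g * (g⁻¹ * J * g) = g⁻¹ * (y * J) * g := by group
      _ = g⁻¹ * (J * y) * g := by rw [h1]
      _ = _ := by group
  obtain ⟨c, hc⟩ := MulAction.exists_smul_eq C (Q.subtype hQ) (P.subtype hP)
  have key : ∀ z ∈ (Q : Subgroup G), (c : G) * z * (c : G)⁻¹ ∈ (P : Subgroup G) := by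
    intro z hz
    have h1 : (⟨z, hQ hz⟩ : C) ∈ ((Q.subtype hQ : Sylow 2 C) : Subgroup C) := by
      rw [Sylow.coe_subtype]
      exact hz
    have h2 := conj_of_smul (Q.subtype hQ) (P.subtype hP) c hc h1
    rw [Sylow.coe_subtype] at h2
    exact h2
  refine ⟨(c : G) * g⁻¹, norm_of_conj _ _ ?_, ?_⟩
  · intro y hy
    have h1 : g⁻¹ * y * g⁻¹⁻¹ ∈ (Q : Subgroup G) := conj_of_smul P Q g⁻¹ rfl hy
    have h2 := key _ h1
    have h3 : (c : G) * g⁻¹ * y * ((c : G) * g⁻¹)⁻¹ = (c : G) * (g⁻¹ * y * g⁻¹⁻¹) * (c : G)⁻¹ := by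
      group
    rw [h3]
    exact h2
  · have h1 : (c : G) * x0 = x0 * c := by
      have h0 := c.2
      have h0' : (c : G) ∈ centralizer ({x0} : Set G) := h0
      rw [mem_centralizer_singleton_iff] at h0'
      exact h0'
    calc (c : G) * g⁻¹ * J * ((c : G) * g⁻¹)⁻¹ = (c : G) * (g⁻¹ * J * g) * (c : G)⁻¹ := by group
      _ = (c : G) * x0 * (c : G)⁻¹ := by rw [hg]
      _ = x0 := by rw [h1]; group

/-- `P ⊓ T` has order `4`. -/
theorem card_inf {J : G} {T : Subgroup G} [Finite G] (hJ : orderOf J = 2)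
    (hd : Cfsg.IsInternalDirectProduct (zpowers J) T (centralizer ({J} : Set G)))
    (P : Sylow 2 G) (hJP : J ∈ P) (hc : ∀ x ∈ P, x * J = J * x) (h8 : Nat.card P = 8) :
    Nat.card ↥((P : Subgroup G) ⊓ T) = 4 := by
  have hP : (P : Subgroup G) ≤ centralizer ({J} : Set G) := fun x hx => by
    rw [mem_centralizer_singleton_iff]
    exact hc x hx
  have h1 : (((P : Subgroup G) ⊓ T).subgroupOf (P : Subgroup G)).index = 2 := by
    rw [Subgroup.index_eq_two_iff]
    refine ⟨⟨J, hJP⟩, ?_⟩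
    rintro ⟨b, hb⟩
    simp only [Subgroup.mem_subgroupOf, Subgroup.coe_mul, Subgroup.mem_inf]
    have hbJ : Commute J b := (hc b hb).symm
    rcases (Cfsg.Agent.Lib.JZA.mem_cent_iff hJ hd).1 (hP hb) with h | h
    · refine Or.inr ⟨⟨hb, h⟩, ?_⟩
      rintro ⟨-, h2⟩
      apply Cfsg.Agent.Lib.JZA.J_not_mem hJ hd
      have h3 := T.mul_mem h2 (T.inv_mem h)
      rw [hbJ.eq.symm] at h3
      simpa using h3
    · refine Or.inl ⟨⟨(P : Subgroup G).mul_mem hb hJP, ?_⟩, ?_⟩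
      · rw [← hbJ.eq]
        exact h
      · rintro ⟨-, h2⟩
        apply Cfsg.Agent.Lib.JZA.J_not_mem hJ hd
        have h3 := T.mul_mem h (T.inv_mem h2)
        simpa using h3
  have h2 := Subgroup.card_mul_index (((P : Subgroup G) ⊓ T).subgroupOf (P : Subgroup G))
  rw [h1] at h2
  have h3 : Nat.card ↥(((P : Subgroup G) ⊓ T).subgroupOf (P : Subgroup G)) =
      Nat.card ↥((P : Subgroup G) ⊓ T) :=
    Nat.card_congr (Subgroup.subgroupOfEquivOfLe (inf_le_left : (P : Subgroup G) ⊓ T ≤ P)).toEquiv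
  rw [h3] at h2
  have h4 : Nat.card ↥(P : Subgroup G) = 8 := h8
  omega

theorem orbit_all {G : Type*} [Group G] [Finite G] {J : G} {T : Subgroup G}
    (h2 : ∀ N : Subgroup G, N.Normal → N.index ≠ 2) (hJ : orderOf J = 2)
    (hd : Cfsg.IsInternalDirectProduct (zpowers J) T (centralizer ({J} : Set G)))
    (P : Sylow 2 G) (hJP : J ∈ P) (hc : ∀ x ∈ P, x * J = J * x) (h8 : Nat.card P = 8)
    (hel : ∀ x ∈ P, x ^ 2 = 1)
    (hτ : ∀ x ∈ T, ∀ y ∈ T, x ^ 2 = 1 → y ^ 2 = 1 → x ≠ 1 → y ≠ 1 → x ≠ y → x * y = y * x →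
      ∃ τ ∈ T, τ * x * τ⁻¹ = y ∧ τ * y * τ⁻¹ = x * y) :
    ∀ u ∈ P, u ≠ 1 → ∃ n ∈ normalizer ((P : Subgroup G) : Set G), n * J * n⁻¹ = u := by
  classical
  have hJJ : J * J = 1 := Cfsg.Agent.Lib.JZA.mul_J hJ
  have hJ1 : J ≠ 1 := Cfsg.Agent.Lib.JZA.ne_one hJ
  have hJT : J ∉ T := Cfsg.Agent.Lib.JZA.J_not_mem hJ hd
  have hJP' : J ∈ (P : Subgroup G) := hJP
  have hel' : ∀ x ∈ (P : Subgroup G), x * x = 1 := fun x hx => by
    rw [← pow_two]; exact hel x hx
  have hcomm : ∀ a ∈ (P : Subgroup G), ∀ b ∈ (P : Subgroup G), a * b = b * a := fun a ha b hb =>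
    el_comm (hel a ha) (hel b hb) (hel _ ((P : Subgroup G).mul_mem ha hb))
  have hPC : (P : Subgroup G) ≤ centralizer ({J} : Set G) := fun x hx => by
    rw [mem_centralizer_singleton_iff]
    exact hc x hx
  have hCP : ∀ p ∈ (P : Subgroup G), p ∈ T ∨ J * p ∈ T := fun p hp =>
    (Cfsg.Agent.Lib.JZA.mem_cent_iff hJ hd).1 (hPC hp)
  -- the conjugate of `J` in `D`
  obtain ⟨g, hg⟩ := Cfsg.Agent.Lib.JZA.exists_conj h2 hJ hd P hJP hc
  obtain ⟨x0, hx0⟩ : ∃ x0, x0 = g⁻¹ * J * g := ⟨_, rfl⟩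
  rw [← hx0] at hg
  have hx0P : x0 ∈ (P : Subgroup G) := hg.1
  have hx0T : x0 ∈ T := hg.2
  have hx01 : x0 ≠ 1 := by
    intro h
    apply hJ1
    rw [h] at hx0
    have h3 : J = g * (g⁻¹ * J * g) * g⁻¹ := by group
    rw [h3, ← hx0]
    group
  obtain ⟨n, hn, hnJ⟩ := exists_norm_conj P hx0 (fun x hx => hc x hx)
    (fun x hx => hcomm x hx x0 hx0P)
  -- the structure of `D`
  have hcard := card_inf hJ hd P hJP hc h8
  have hD4 : ((((P : Subgroup G) ⊓ T : Subgroup G)) : Set G).ncard = 4 := by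
    rw [← Nat.card_coe_set_eq]
    exact hcard
  obtain ⟨d2, hd2D, hd2n⟩ : ∃ d2, d2 ∈ (((P : Subgroup G) ⊓ T : Subgroup G) : Set G) ∧
      d2 ∉ ({1, x0} : Set G) := by
    apply Set.exists_mem_notMem_of_ncard_lt_ncard
    · rw [hD4]
      have := Set.ncard_insert_le (1 : G) ({x0} : Set G)
      rw [Set.ncard_singleton] at this
      omega
    · exact Set.toFinite _
  have hd2P : d2 ∈ (P : Subgroup G) := hd2D.1
  have hd2T : d2 ∈ T := hd2D.2
  have hd21 : d2 ≠ 1 := fun h => hd2n (Or.inl h)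
  have hd2x : d2 ≠ x0 := fun h => hd2n (Or.inr h)
  have hxd : x0 * d2 = d2 * x0 := hcomm _ hx0P _ hd2P
  have hx0x0 : x0 * x0 = 1 := hel' _ hx0P
  have hd2d2 : d2 * d2 = 1 := hel' _ hd2P
  obtain ⟨x3, hx3⟩ : ∃ x3, x3 = x0 * d2 := ⟨_, rfl⟩
  have hx3P : x3 ∈ (P : Subgroup G) := by rw [hx3]; exact (P : Subgroup G).mul_mem hx0P hd2P
  have hx3T : x3 ∈ T := by rw [hx3]; exact T.mul_mem hx0T hd2T
  have hx31 : x3 ≠ 1 := by
    intro h
    apply hd2x
    rw [hx3] at h
    calc d2 = (x0 * x0) * d2 := by rw [hx0x0, one_mul]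
      _ = x0 * (x0 * d2) := by rw [mul_assoc]
      _ = x0 := by rw [h, mul_one]
  have hx3x : x3 ≠ x0 := by
    intro h
    apply hd21
    rw [hx3] at h
    simpa using h
  have hx3d : x3 ≠ d2 := by
    intro h
    apply hx01
    rw [hx3] at h
    simpa using h
  have hDmem : ∀ u ∈ (P : Subgroup G), u ∈ T → u = 1 ∨ u = x0 ∨ u = d2 ∨ u = x3 := by
    have hF : ((({1, x0, d2, x3} : Finset G)) : Set G) = (((P : Subgroup G) ⊓ T : Subgroup G) : Set G) := by
      apply Set.eq_of_subset_of_ncard_le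
      · intro u hu
        simp only [Finset.coe_insert, Finset.coe_singleton, Set.mem_insert_iff,
          Set.mem_singleton_iff] at hu
        rcases hu with rfl | rfl | rfl | rfl
        · exact one_mem _
        · exact ⟨hx0P, hx0T⟩
        · exact ⟨hd2P, hd2T⟩
        · exact ⟨hx3P, hx3T⟩
      · rw [hD4, Set.ncard_coe_finset]
        rw [Finset.card_insert_of_notMem, Finset.card_insert_of_notMem, Finset.card_insert_of_notMem,
          Finset.card_singleton]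
        · simp only [Finset.mem_singleton]; exact fun h => hx3d h.symm
        · simp only [Finset.mem_insert, Finset.mem_singleton, not_or]
          exact ⟨fun h => hd2x h.symm, fun h => hx3x h.symm⟩
        · simp only [Finset.mem_insert, Finset.mem_singleton, not_or]
          exact ⟨fun h => hx01 h.symm, fun h => hd21 h.symm, fun h => hx31 h.symm⟩
      · exact Set.toFinite _
    intro u hu huT
    have h3 : u ∈ (((P : Subgroup G) ⊓ T : Subgroup G) : Set G) := ⟨hu, huT⟩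
    rw [← hF] at h3
    simpa using h3
  -- the element `τ`
  obtain ⟨τ, hτT, hτ1, hτ2⟩ := hτ x0 hx0T d2 hd2T (hel _ hx0P) (hel _ hd2P) hx01 hd21 hd2x.symm hxd
  have hτJ : τ * J * τ⁻¹ = J := by
    have h3 := (Cfsg.Agent.Lib.JZA.comm_J hd hτT).eq
    rw [← h3]
    group
  have hτ2' : τ * d2 * τ⁻¹ = x3 := by rw [hτ2, hx3]
  have hτ3 : τ * x3 * τ⁻¹ = x0 := by
    have h3 : τ * x3 * τ⁻¹ = (τ * x0 * τ⁻¹) * (τ * d2 * τ⁻¹) := by rw [hx3]; group
    rw [h3, hτ1, hτ2']
    rw [hx3, hxd]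
    calc d2 * (d2 * x0) = (d2 * d2) * x0 := by rw [mul_assoc]
      _ = x0 := by rw [hd2d2, one_mul]
  have hτ0 : τ * (1 : G) * τ⁻¹ = 1 := by group
  have hτD : ∀ u ∈ (P : Subgroup G), u ∈ T → τ * u * τ⁻¹ ∈ (P : Subgroup G) := by
    intro u hu huT
    rcases hDmem u hu huT with rfl | rfl | rfl | rfl
    · rw [hτ0]; exact one_mem _
    · rw [hτ1]; exact hd2P
    · rw [hτ2']; exact hx3P
    · rw [hτ3]; exact hx0P
  have hτJu : ∀ u, τ * (J * u) * τ⁻¹ = J * (τ * u * τ⁻¹) := by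
    intro u
    have h3 : τ * (J * u) * τ⁻¹ = (τ * J * τ⁻¹) * (τ * u * τ⁻¹) := by group
    rw [h3, hτJ]
  have hτN : τ ∈ normalizer ((P : Subgroup G) : Set G) := by
    apply norm_of_conj
    intro y hy
    rcases hCP y hy with h | h
    · exact hτD y hy h
    · have h3 : y = J * (J * y) := by rw [← mul_assoc, hJJ, one_mul]
      rw [h3, hτJu]
      exact (P : Subgroup G).mul_mem hJP' (hτD _ ((P : Subgroup G).mul_mem hJP' hy) h)
  -- the orbit
  have hOc : ∀ {u m : G}, (∃ k ∈ normalizer ((P : Subgroup G) : Set G), k * J * k⁻¹ = u) →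
      m ∈ normalizer ((P : Subgroup G) : Set G) →
      ∃ k ∈ normalizer ((P : Subgroup G) : Set G), k * J * k⁻¹ = m * u * m⁻¹ := by
    rintro u m ⟨k, hk, rfl⟩ hm
    exact ⟨m * k, mul_mem hm hk, by group⟩
  have hOx0 : ∃ k ∈ normalizer ((P : Subgroup G) : Set G), k * J * k⁻¹ = x0 := ⟨n, hn, hnJ⟩
  have hOd2 : ∃ k ∈ normalizer ((P : Subgroup G) : Set G), k * J * k⁻¹ = d2 := by
    have := hOc hOx0 hτN
    rwa [hτ1] at this
  have hOx3 : ∃ k ∈ normalizer ((P : Subgroup G) : Set G), k * J * k⁻¹ = x3 := by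
    have := hOc hOd2 hτN
    rwa [hτ2'] at this
  have hninv := inv_mem hn
  have hOa := hOc hOd2 hninv
  have hOb := hOc hOx3 hninv
  rw [inv_inv] at hOa hOb
  have hnP : ∀ y ∈ (P : Subgroup G), n⁻¹ * y * n ∈ (P : Subgroup G) := by
    intro y hy
    have h3 := (Subgroup.mem_normalizer_iff.1 hninv y).1 hy
    rwa [inv_inv] at h3
  have hab : (n⁻¹ * d2 * n) * (n⁻¹ * x3 * n) = J := by
    have h3 : d2 * x3 = x0 := by
      rw [hx3, hxd]
      calc d2 * (d2 * x0) = (d2 * d2) * x0 := by rw [mul_assoc]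
        _ = x0 := by rw [hd2d2, one_mul]
    calc (n⁻¹ * d2 * n) * (n⁻¹ * x3 * n) = n⁻¹ * (d2 * x3) * n := by group
      _ = n⁻¹ * (n * J * n⁻¹) * n := by rw [h3, hnJ]
      _ = J := by group
  have haJ : n⁻¹ * d2 * n ≠ J := by
    intro h
    apply hd2x
    rw [← hnJ, ← h]
    group
  have hbJ : n⁻¹ * x3 * n ≠ J := by
    intro h
    apply hx3x
    rw [← hnJ, ← h]
    group
  -- some `J * d` is in the orbit
  have hex : ∃ d ∈ (P : Subgroup G), d ∈ T ∧ d ≠ 1 ∧
      ∃ k ∈ normalizer ((P : Subgroup G) : Set G), k * J * k⁻¹ = J * d := by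
    have hgen : ∀ a ∈ (P : Subgroup G), a ∉ T → a ≠ J →
        (∃ k ∈ normalizer ((P : Subgroup G) : Set G), k * J * k⁻¹ = a) →
        ∃ d ∈ (P : Subgroup G), d ∈ T ∧ d ≠ 1 ∧
          ∃ k ∈ normalizer ((P : Subgroup G) : Set G), k * J * k⁻¹ = J * d := by
      intro a ha haT haJ' hO
      have h3 : J * a ∈ T := (hCP a ha).resolve_left haT
      refine ⟨J * a, (P : Subgroup G).mul_mem hJP' ha, h3, ?_, ?_⟩
      · intro h
        apply haJ'
        calc a = (J * J) * a := by rw [hJJ, one_mul]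
          _ = J * (J * a) := by rw [mul_assoc]
          _ = J := by rw [h, mul_one]
      · have h4 : J * (J * a) = a := by rw [← mul_assoc, hJJ, one_mul]
        rw [h4]
        exact hO
    by_cases h3 : n⁻¹ * d2 * n ∈ T
    · have h4 : n⁻¹ * x3 * n ∉ T := by
        intro h5
        apply hJT
        rw [← hab]
        exact T.mul_mem h3 h5
      exact hgen _ (hnP _ hx3P) h4 hbJ hOb
    · exact hgen _ (hnP _ hd2P) h3 haJ hOa
  have hrot : ∀ {u : G}, (∃ k ∈ normalizer ((P : Subgroup G) : Set G), k * J * k⁻¹ = J * u) →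
      ∃ k ∈ normalizer ((P : Subgroup G) : Set G), k * J * k⁻¹ = J * (τ * u * τ⁻¹) := by
    intro u hO
    have := hOc hO hτN
    rwa [hτJu] at this
  obtain ⟨d, hdP, hdT, hd1, hOd⟩ := hex
  have hall : (∃ k ∈ normalizer ((P : Subgroup G) : Set G), k * J * k⁻¹ = J * x0) ∧
      (∃ k ∈ normalizer ((P : Subgroup G) : Set G), k * J * k⁻¹ = J * d2) ∧
      (∃ k ∈ normalizer ((P : Subgroup G) : Set G), k * J * k⁻¹ = J * x3) := by
    have r1 : ∀ _ : (∃ k ∈ normalizer ((P : Subgroup G) : Set G), k * J * k⁻¹ = J * x0),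
        ∃ k ∈ normalizer ((P : Subgroup G) : Set G), k * J * k⁻¹ = J * d2 := by
      intro h
      have := hrot h
      rwa [hτ1] at this
    have r2 : ∀ _ : (∃ k ∈ normalizer ((P : Subgroup G) : Set G), k * J * k⁻¹ = J * d2),
        ∃ k ∈ normalizer ((P : Subgroup G) : Set G), k * J * k⁻¹ = J * x3 := by
      intro h
      have := hrot h
      rwa [hτ2'] at this
    have r3 : ∀ _ : (∃ k ∈ normalizer ((P : Subgroup G) : Set G), k * J * k⁻¹ = J * x3),
        ∃ k ∈ normalizer ((P : Subgroup G) : Set G), k * J * k⁻¹ = J * x0 := by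
      intro h
      have := hrot h
      rwa [hτ3] at this
    rcases hDmem d hdP hdT with h | h | h | h
    · exact absurd h hd1
    · rw [h] at hOd
      exact ⟨hOd, r1 hOd, r2 (r1 hOd)⟩
    · rw [h] at hOd
      exact ⟨r3 (r2 hOd), hOd, r2 hOd⟩
    · rw [h] at hOd
      exact ⟨r3 hOd, r1 (r3 hOd), hOd⟩
  -- conclusion
  intro u hu hu1
  have huP : u ∈ (P : Subgroup G) := hu
  rcases hCP u huP with h | h
  · rcases hDmem u huP h with h3 | h3 | h3 | h3
    · exact absurd h3 hu1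
    · rw [h3]; exact hOx0
    · rw [h3]; exact hOd2
    · rw [h3]; exact hOx3
  · have h4 : u = J * (J * u) := by rw [← mul_assoc, hJJ, one_mul]
    rcases hDmem (J * u) ((P : Subgroup G).mul_mem hJP' huP) h with h3 | h3 | h3 | h3
    · have h5 : u = J := by rw [h4, h3, mul_one]
      rw [h5]
      exact ⟨1, one_mem _, by group⟩
    · rw [h4, h3]; exact hall.1
    · rw [h4, h3]; exact hall.2.1
    · rw [h4, h3]; exact hall.2.2

end Cfsg.Agent.Lib.JZOrb
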