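import Mathlib
import Cfsg.Agent.Lib.JZA
import Cfsg.Agent.Lib.JZB
import Cfsg.Agent.Lib.BurnsidePQ
import Cfsg.Agent.Lib.JZOrb

/-!
# The case `m = 4` of `C(J) = ⟨J⟩ × A_m`: the local structure
-/

set_option autoImplicit false
set_option linter.all false
set_option maxRecDepth 100000

namespace Cfsg.Agent.Lib.JZM4

open Subgroup
open Cfsg.Agent.Lib.JZA Cfsg.Agent.Lib.JZB
open Cfsg.Agent.Lib.SmallGroups2 (mem_smul_sylow_iff)

abbrev A4 := ↥(alternatingGroup (Fin 4))

theorem a4_pow8 : ∀ a : A4, a ^ 8 = 1 → a ^ 2 = 1 := by decide +kernel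

theorem a4_sq_card : (Finset.univ.filter (fun a : A4 => a ^ 2 = 1)).card = 4 := by decide +kernel

theorem a4_cent : ∀ a : A4, (∀ v : A4, v ^ 2 = 1 → a * v = v * a) → a ^ 2 = 1 := by decide +kernel

theorem a4_tau0 : ∀ x y : A4, (x ^ 2 = 1 ∧ y ^ 2 = 1 ∧ x ≠ 1 ∧ y ≠ 1 ∧ x ≠ y ∧ x * y = y * x) →
    ∃ τ : A4, τ * x * τ⁻¹ = y ∧ τ * y * τ⁻¹ = x * y := by decide +kernel

theorem a4_tau (x y : A4) (h1 : x ^ 2 = 1) (h2 : y ^ 2 = 1) (h3 : x ≠ 1) (h4 : y ≠ 1) (h5 : x ≠ y) (h6 : x * y = y * x) :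
    ∃ τ : A4, τ * x * τ⁻¹ = y ∧ τ * y * τ⁻¹ = x * y := a4_tau0 x y ⟨h1, h2, h3, h4, h5, h6⟩

theorem a4_card : Nat.card A4 = 12 := by
  rw [Nat.card_eq_fintype_card]; decide +kernel

variable {G : Type*} [Group G] [Finite G]

theorem m4_aux (hns : ¬ Group.IsSolvable G) {J : G} (hJ : orderOf J = 2) {T : Subgroup G} (e : T ≃* A4)
    (hd : Cfsg.IsInternalDirectProduct (zpowers J) T (centralizer ({J} : Set G)))
    (P : Sylow 2 G) (hJP : J ∈ P) (hc : ∀ x ∈ P, x * J = J * x)
    (horb : Nat.card P = 8 → (∀ x ∈ P, x ^ 2 = 1) →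
      (∀ x ∈ T, ∀ y ∈ T, x ^ 2 = 1 → y ^ 2 = 1 → x ≠ 1 → y ≠ 1 → x ≠ y → x * y = y * x →
        ∃ τ ∈ T, τ * x * τ⁻¹ = y ∧ τ * y * τ⁻¹ = x * y) →
      ∀ u ∈ P, u ≠ 1 → ∃ n ∈ normalizer ((P : Subgroup G) : Set G), n * J * n⁻¹ = u) :
    E8Str G := by
  classical
  have hJJ := mul_J hJ
  have hJ1 := ne_one hJ
  have hJn := J_not_mem hJ hd
  have hJC : J ∈ centralizer ({J} : Set G) := hd.1 (mem_zpowers J)
  have hPC : (P : Subgroup G) ≤ centralizer ({J} : Set G) := fun x hx => by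
    rw [mem_centralizer_singleton_iff]
    exact hc x hx
  have hTC : T ≤ centralizer ({J} : Set G) := hd.2.1
  have hcardT : Nat.card T = 12 := (Nat.card_congr e.toEquiv).trans a4_card
  -- `|C(J)| = 24`
  have hcardC : Nat.card (centralizer ({J} : Set G)) = 24 := by
    have hidx : (T.subgroupOf (centralizer ({J} : Set G))).index = 2 := by
      rw [Subgroup.index_eq_two_iff]
      refine ⟨⟨J, hJC⟩, ?_⟩
      rintro ⟨b, hb⟩
      simp only [Subgroup.mem_subgroupOf, Subgroup.coe_mul]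
      have hbJ : b * J = J * b := by
        rw [mem_centralizer_singleton_iff] at hb
        exact hb
      rcases (mem_cent_iff hJ hd).1 hb with h | h
      · refine Or.inr ⟨h, ?_⟩
        intro h2
        apply hJn
        have h3 := T.mul_mem (T.inv_mem h) h2
        simpa using h3
      · refine Or.inl ⟨by rw [hbJ]; exact h, ?_⟩
        intro h2
        apply hJn
        have h3 := T.mul_mem h (T.inv_mem h2)
        simpa using h3
    have h1 := Subgroup.card_mul_index (T.subgroupOf (centralizer ({J} : Set G)))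
    rw [card_subgroupOf_le' hTC, hcardT, hidx] at h1
    omega
  -- `|P| = 8`
  have h8 : Nat.card P = 8 := by
    have h1 : Nat.card P ∣ 24 := by
      rw [← hcardC]
      exact Subgroup.card_dvd_of_le hPC
    have h2 : 2 ^ 3 ∣ Nat.card P := by
      apply P.pow_dvd_card_of_pow_dvd_card
      refine dvd_trans ?_ (Subgroup.card_subgroup_dvd_card (centralizer ({J} : Set G)))
      rw [hcardC]; norm_num
    obtain ⟨a, ha⟩ := IsPGroup.iff_card.1 P.isPGroup'
    have h3 : Nat.card P ≤ 24 := Nat.le_of_dvd (by norm_num) h1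
    obtain ⟨k, hk⟩ := h2
    have h4 : ¬ (3 ∣ Nat.card P) := by
      rw [ha]
      intro h5
      have := (Nat.Prime.dvd_of_dvd_pow Nat.prime_three h5)
      omega
    have h5 : k ∣ 3 := by
      have : 2 ^ 3 * k ∣ 2 ^ 3 * 3 := by
        rw [← hk]; norm_num; simpa using h1
      exact Nat.dvd_of_mul_dvd_mul_left (by norm_num) this
    rcases (Nat.dvd_prime Nat.prime_three).1 h5 with rfl | rfl
    · simpa using hk
    · exact absurd (by rw [hk]; norm_num) h4
  -- elements of `T`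
  have helt : ∀ t ∈ T, t ^ 8 = 1 → t ^ 2 = 1 := by
    intro t ht h1
    have h2 : (e ⟨t, ht⟩) ^ 8 = 1 := by
      rw [← map_pow]
      have : (⟨t, ht⟩ : T) ^ 8 = 1 := Subtype.ext h1
      rw [this, map_one]
    have h3 := a4_pow8 _ h2
    rw [← map_pow] at h3
    have h4 := e.injective (h3.trans (map_one e).symm)
    exact congrArg Subtype.val h4
  have hel : ∀ x ∈ P, x ^ 2 = 1 := by
    intro x hx
    have hx8 : x ^ 8 = 1 := by
      have h1 := pow_card_eq_one' (x := (⟨x, hx⟩ : (P : Subgroup G)))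
      rw [h8] at h1
      exact congrArg Subtype.val h1
    rcases (mem_cent_iff hJ hd).1 (hPC hx) with h | h
    · exact helt x h hx8
    · have hcm := comm_J' hJ hd h
      have h1 : (J * x) ^ 8 = 1 := by
        rw [hcm.mul_pow, hx8, mul_one]
        have : J ^ 8 = (J ^ 2) ^ 4 := by rw [← pow_mul]
        rw [this, sq_J hJ, one_pow]
      have h2 := helt _ h h1
      rw [hcm.mul_pow, sq_J hJ, one_mul] at h2
      exact h2
  -- elements of square one in `C(J)`
  have hchar : ∀ c ∈ centralizer ({J} : Set G), c ^ 2 = 1 → c ∈ P := by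
    let W : Set G := (fun a : A4 => ((e.symm a : T) : G)) '' {a : A4 | a ^ 2 = 1}
    have hWc : W.ncard ≤ 4 := by
      refine (Set.ncard_image_le (Set.toFinite _)).trans ?_
      rw [Set.ncard_eq_toFinset_card']
      have : ({a : A4 | a ^ 2 = 1} : Set A4).toFinset = Finset.univ.filter (fun a : A4 => a ^ 2 = 1) := by
        ext a; simp
      rw [this, a4_sq_card]
    have hWmem : ∀ t ∈ T, t ^ 2 = 1 → t ∈ W := by
      intro t ht h1
      refine ⟨e ⟨t, ht⟩, ?_, by simp⟩
      show (e ⟨t, ht⟩) ^ 2 = 1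
      rw [← map_pow]
      have : (⟨t, ht⟩ : T) ^ 2 = 1 := Subtype.ext h1
      rw [this, map_one]
    let S : Set G := W ∪ (fun w => J * w) '' W
    have hSc : S.ncard ≤ 8 := by
      refine (Set.ncard_union_le _ _).trans ?_
      have h1 : ((fun w => J * w) '' W).ncard ≤ W.ncard := Set.ncard_image_le (Set.toFinite _)
      omega
    have hS : ∀ c ∈ centralizer ({J} : Set G), c ^ 2 = 1 → c ∈ S := by
      intro c hc h1
      rcases (mem_cent_iff hJ hd).1 hc with h | h
      · exact Or.inl (hWmem c h h1)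
      · refine Or.inr ⟨J * c, hWmem _ h ?_, ?_⟩
        · rw [(comm_J' hJ hd h).mul_pow, sq_J hJ, one_mul]; exact h1
        · show J * (J * c) = c
          rw [← mul_assoc, hJJ, one_mul]
    have hPS : ((P : Subgroup G) : Set G) ⊆ S := fun x hx => hS x (hPC hx) (hel x hx)
    have hPn : ((P : Subgroup G) : Set G).ncard = 8 := by
      rw [← Nat.card_coe_set_eq]; exact h8
    have hEq : ((P : Subgroup G) : Set G) = S :=
      Set.eq_of_subset_of_ncard_le hPS (by rw [hPn]; exact hSc) (Set.toFinite _)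
    intro c hc h1
    have := hS c hc h1
    rw [← hEq] at this
    exact this
  -- `C(J)` normalizes `P`
  have hnorm : ∀ c ∈ centralizer ({J} : Set G), c ∈ normalizer ((P : Subgroup G) : Set G) := by
    have hone : ∀ c ∈ centralizer ({J} : Set G), ∀ x ∈ P, c * x * c⁻¹ ∈ P := by
      intro c hc' x hx
      refine hchar _ (mul_mem (mul_mem hc' (hPC hx)) (inv_mem hc')) ?_
      have : (c * x * c⁻¹) ^ 2 = c * x ^ 2 * c⁻¹ := conj_pow
      rw [this, hel x hx]; group
    intro c hc'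
    rw [Subgroup.mem_normalizer_iff]
    intro h
    refine ⟨hone c hc' h, fun hh => ?_⟩
    have := hone c⁻¹ (inv_mem hc') _ hh
    have e1 : c⁻¹ * (c * h * c⁻¹) * c⁻¹⁻¹ = h := by group
    rwa [e1] at this
  -- the `τ`
  have hτ : ∀ x ∈ T, ∀ y ∈ T, x ^ 2 = 1 → y ^ 2 = 1 → x ≠ 1 → y ≠ 1 → x ≠ y → x * y = y * x →
        ∃ τ ∈ T, τ * x * τ⁻¹ = y ∧ τ * y * τ⁻¹ = x * y := by
    intro x hx y hy hx2 hy2 hx1 hy1 hxy hcm
    have hsq : ∀ {t : G} (ht : t ∈ T), t ^ 2 = 1 → (e ⟨t, ht⟩) ^ 2 = 1 := by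
      intro t ht h1
      rw [← map_pow]
      have : (⟨t, ht⟩ : T) ^ 2 = 1 := Subtype.ext h1
      rw [this, map_one]
    have hne1 : ∀ {t : G} (ht : t ∈ T), t ≠ 1 → e ⟨t, ht⟩ ≠ 1 := by
      intro t ht h1 h2
      apply h1
      have h3 : (⟨t, ht⟩ : T) = 1 := e.injective (h2.trans (map_one e).symm)
      exact congrArg Subtype.val h3
    obtain ⟨τ, h1, h2⟩ := a4_tau (e ⟨x, hx⟩) (e ⟨y, hy⟩) (hsq hx hx2) (hsq hy hy2) (hne1 hx hx1) (hne1 hy hy1)
      (fun h => hxy (congrArg Subtype.val (e.injective h))) (by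
        rw [← map_mul, ← map_mul]
        congr 1
        exact Subtype.ext hcm)
    refine ⟨(e.symm τ : T), (e.symm τ).2, ?_, ?_⟩
    · have h3 := congrArg e.symm h1
      simp only [map_mul, map_inv, MulEquiv.symm_apply_apply] at h3
      exact congrArg Subtype.val h3
    · have h3 := congrArg e.symm h2
      simp only [map_mul, map_inv, MulEquiv.symm_apply_apply] at h3
      exact congrArg Subtype.val h3
  have hO := horb h8 hel hτ
  -- every nonidentity element of a Sylow subgroup is a conjugate of `J`, compatibly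
  have hkey : ∀ A : Sylow 2 G, ∀ u ∈ (A : Subgroup G), u ≠ 1 → ∃ h : G, h • P = A ∧ h * J * h⁻¹ = u := by
    intro A u hu hu1
    obtain ⟨g, hg⟩ := MulAction.exists_smul_eq G P A
    have hu0 : g⁻¹ * u * g ∈ P := by
      rw [← hg] at hu
      exact mem_smul_sylow_iff.1 hu
    have hu01 : g⁻¹ * u * g ≠ 1 := by
      intro h1
      apply hu1
      have : u = g * (g⁻¹ * u * g) * g⁻¹ := by group
      rw [this, h1]; group
    obtain ⟨n, hn, hnJ⟩ := hO _ hu0 hu01
    refine ⟨g * n, ?_, ?_⟩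
    · rw [mul_smul, (mem_NN_iff (A := P)).1 hn, hg]
    · calc g * n * J * (g * n)⁻¹ = g * (n * J * n⁻¹) * g⁻¹ := by group
        _ = u := by rw [hnJ]; group
  have hP1 : ∃ u ∈ (P : Subgroup G), u ≠ 1 := ⟨J, hJP, hJ1⟩
  -- conjugation transports
  have hcent_conj : ∀ (h y : G), y ∈ centralizer ({h * J * h⁻¹} : Set G) → h⁻¹ * y * h ∈ centralizer ({J} : Set G) := by
    intro h y hy
    rw [mem_centralizer_singleton_iff] at hy ⊢
    calc h⁻¹ * y * h * J = h⁻¹ * (y * (h * J * h⁻¹)) * h := by group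
      _ = h⁻¹ * ((h * J * h⁻¹) * y) * h := by rw [hy]
      _ = J * (h⁻¹ * y * h) := by group
  have hcent_conj' : ∀ (h y : G), y ∈ centralizer ({J} : Set G) → h * y * h⁻¹ ∈ centralizer ({h * J * h⁻¹} : Set G) := by
    intro h y hy
    rw [mem_centralizer_singleton_iff] at hy ⊢
    calc h * y * h⁻¹ * (h * J * h⁻¹) = h * (y * J) * h⁻¹ := by group
      _ = h * (J * y) * h⁻¹ := by rw [hy]
      _ = _ := by group
  refine E8Str.mk ?_ ?_ ?_ ?_ ?_ ?_ ?_
  · -- card8
    intro A
    rw [Sylow.card_eq_multiplicity A, ← Sylow.card_eq_multiplicity P]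
    exact h8
  · -- elem
    intro A x hx
    obtain ⟨g, rfl⟩ := MulAction.exists_smul_eq G P A
    have h1 := hel _ (mem_smul_sylow_iff.1 hx)
    have h2 : (g⁻¹ * x * g) ^ 2 = g⁻¹ * x ^ 2 * g := by
      have := conj_pow (a := g⁻¹) (b := x) (i := 2)
      simpa using this
    rw [h2] at h1
    have h3 : x ^ 2 = g * (g⁻¹ * x ^ 2 * g) * g⁻¹ := by group
    rw [h3, h1]; group
  · -- cent_le
    intro A u hu hu1 y hy
    obtain ⟨h, rfl, rfl⟩ := hkey A u hu hu1
    have h1 := hnorm _ (hcent_conj h y hy)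
    rw [mem_NN_iff]
    calc y • h • P = (h * (h⁻¹ * y * h)) • P := by rw [smul_smul]; congr 1; group
      _ = h • (h⁻¹ * y * h) • P := by rw [mul_smul]
      _ = h • P := by rw [(mem_NN_iff (A := P)).1 h1]
  · -- card_cent
    intro A u hu hu1
    obtain ⟨h, rfl, rfl⟩ := hkey A u hu hu1
    rw [← hcardC]
    refine Nat.card_congr ⟨fun y => ⟨h⁻¹ * y * h, hcent_conj h y y.2⟩, fun y => ⟨h * y * h⁻¹, hcent_conj' h y y.2⟩, ?_, ?_⟩
    · intro y; apply Subtype.ext; show h * (h⁻¹ * y * h) * h⁻¹ = y; group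
    · intro y; apply Subtype.ext; show h⁻¹ * (h * y * h⁻¹) * h = y; group
  · -- trans
    intro A u hu v hv hu1 hv1
    obtain ⟨h, hA, rfl⟩ := hkey A u hu hu1
    obtain ⟨h', hA', rfl⟩ := hkey A v hv hv1
    refine ⟨h' * h⁻¹, ?_, by group⟩
    rw [mem_NN_iff]
    calc (h' * h⁻¹) • A = (h' * h⁻¹) • (h • P) := by rw [hA]
      _ = h' • P := by rw [smul_smul]; congr 1; group
      _ = A := hA'
  · -- self_cent
    intro A g hg
    obtain ⟨h, rfl⟩ := MulAction.exists_smul_eq G P A
    rw [mem_smul_sylow_iff]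
    set c := h⁻¹ * g * h with hcdef
    have hcP : ∀ x ∈ P, c * x = x * c := by
      intro x hx
      have h1 := hg (h * x * h⁻¹) (by
        rw [mem_smul_sylow_iff]
        have : h⁻¹ * (h * x * h⁻¹) * h = x := by group
        rwa [this])
      calc c * x = h⁻¹ * (g * (h * x * h⁻¹)) * h := by rw [hcdef]; group
        _ = h⁻¹ * ((h * x * h⁻¹) * g) * h := by rw [h1]
        _ = x * c := by rw [hcdef]; group
    have hcC : c ∈ centralizer ({J} : Set G) := by
      rw [mem_centralizer_singleton_iff]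
      exact hcP J hJP
    -- all involutions of `T` are in `P`
    have hTP : ∀ t ∈ T, t ^ 2 = 1 → t ∈ P := fun t ht h1 => hchar t (hTC ht) h1
    have hcentT : ∀ d ∈ T, (∀ x ∈ P, d * x = x * d) → d ^ 2 = 1 := by
      intro d hd hdP
      have h1 : (e ⟨d, hd⟩) ^ 2 = 1 := by
        apply a4_cent
        intro v hv
        have hv' : (((e.symm v : T) : G)) ^ 2 = 1 := by
          have h2 : (e.symm v) ^ 2 = 1 := by
            rw [← map_pow, hv, map_one]
          exact congrArg Subtype.val h2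
        have h3 := hdP _ (hTP _ (e.symm v).2 hv')
        have h4 : (⟨d, hd⟩ : T) * (e.symm v) = (e.symm v) * ⟨d, hd⟩ := Subtype.ext h3
        have h5 := congrArg e h4
        simpa [map_mul] using h5
      rw [← map_pow] at h1
      have h2 := e.injective (h1.trans (map_one e).symm)
      exact congrArg Subtype.val h2
    rcases (mem_cent_iff hJ hd).1 hcC with h1 | h1
    · exact hTP c h1 (hcentT c h1 hcP)
    · have h2 : J * c ∈ P := by
        refine hTP _ h1 (hcentT _ h1 ?_)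
        intro x hx
        rw [mul_assoc, hcP x hx, ← mul_assoc, hc x hx |>.symm, mul_assoc]
      have h3 : c = J * (J * c) := by rw [← mul_assoc, hJJ, one_mul]
      rw [h3]
      exact mul_mem hJP h2
  · -- ne_top
    intro A hA
    apply hns
    -- `P = A` is normal
    have hPtop : normalizer ((P : Subgroup G) : Set G) = ⊤ := by
      rw [eq_top_iff]
      intro y _
      obtain ⟨h, hh⟩ := MulAction.exists_smul_eq G P A
      rw [mem_NN_iff]
      have h1 : ∀ z : G, z • A = A := fun z => (mem_NN_iff (A := A)).1 (by rw [hA]; trivial)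
      have h2 : P = h⁻¹ • A := by rw [← hh, smul_smul, inv_mul_cancel, one_smul]
      rw [h2, smul_smul]
      rw [h1, h1]
    have hJN : J ∈ normalizer ((P : Subgroup G) : Set G) := Subgroup.le_normalizer hJP
    have h1 := Cfsg.Agent.Lib.JUG1.card_orbit (normalizer ((P : Subgroup G) : Set G)) hJN
      {v | v ∈ (P : Subgroup G) ∧ v ≠ 1} (by
      intro v
      constructor
      · rintro ⟨h1, h2⟩
        exact hO v h1 h2
      · rintro ⟨n, hn, rfl⟩
        refine ⟨(Subgroup.mem_normalizer_iff.1 hn J).1 hJP, ?_⟩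
        intro h5
        apply hJ1
        have : J = n⁻¹ * (n * J * n⁻¹) * n := by group
        rw [this, h5]
        group)
    have hY : Nat.card ({v | v ∈ (P : Subgroup G) ∧ v ≠ 1} : Set G) = 7 := by
      have h3 : ({v | v ∈ (P : Subgroup G) ∧ v ≠ 1} : Set G) = ((P : Subgroup G) : Set G) \ {1} := by
        ext u
        exact ⟨fun ⟨a, b⟩ => ⟨a, b⟩, fun ⟨a, b⟩ => ⟨a, b⟩⟩
      rw [h3, Nat.card_coe_set_eq, Set.ncard_sdiff_singleton_of_mem (by simp)]
      have h4 : ((P : Subgroup G) : Set G).ncard = 8 := by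
        rw [← Nat.card_coe_set_eq]
        exact h8
      rw [h4]
    have hinf : normalizer ((P : Subgroup G) : Set G) ⊓ centralizer ({J} : Set G) = centralizer ({J} : Set G) :=
      inf_eq_right.2 (fun c hc => hnorm c hc)
    rw [hY, hinf, hcardC, hPtop, Subgroup.card_top] at h1
    haveI hPn : (P : Subgroup G).Normal := Subgroup.normalizer_eq_top_iff.1 hPtop
    have hquot : Nat.card (G ⧸ (P : Subgroup G)) = 21 := by
      have h2 := Subgroup.card_eq_card_quotient_mul_card_subgroup (P : Subgroup G)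
      rw [h1, h8] at h2
      omega
    have hQs : Group.IsSolvable (G ⧸ (P : Subgroup G)) :=
      Cfsg.Agent.Lib.BurnsidePQ.isSolvable_of_card_eq 3 7 Nat.prime_three (by norm_num) 21 _ hquot ⟨1, 1, by norm_num⟩
    have hPs : Group.IsSolvable (P : Subgroup G) :=
      Group.isSolvable_of_comm (fun a b => Subtype.ext (comm_of_elem (fun x hx => hel x hx) a.2 b.2))
    exact Group.isSolvable_of_ker_le_range (P : Subgroup G).subtype (QuotientGroup.mk' (P : Subgroup G)) (by
      intro x hx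
      rw [QuotientGroup.ker_mk'] at hx
      exact ⟨⟨x, hx⟩, rfl⟩)

theorem m4_str (hns : ¬ Group.IsSolvable G) (h2 : ∀ N : Subgroup G, N.Normal → N.index ≠ 2) {J : G}
    (hJ : Cfsg.IsTwoCentralInvolution J) {T : Subgroup G}
    (hT : Nonempty (↥T ≃* ↥(alternatingGroup (Fin 4))))
    (hd : Cfsg.IsInternalDirectProduct (zpowers J) T (centralizer ({J} : Set G))) : E8Str G := by
  obtain ⟨hJ2, P, hJP, hc⟩ := hJ
  obtain ⟨e⟩ := hT
  exact m4_aux hns hJ2 e hd P hJP hc
    (fun h8 hel hτ => Cfsg.Agent.Lib.JZOrb.orbit_all h2 hJ2 hd P hJP hc h8 hel hτ)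

end Cfsg.Agent.Lib.JZM4
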