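import Mathlib
import Cfsg.Agent.Lib.JZA

/-!
# Centralizer `2 × A₅`: a group with this centralizer and a transitive normalizer on the Sylow
`2`-subgroup is simple (core for the Janko-type case)
-/

set_option autoImplicit false
set_option linter.unusedVariables false
set_option linter.unusedSectionVars false
set_option linter.style.haveILetI false
set_option maxRecDepth 100000
set_option synthInstance.maxHeartbeats 400000
set_option synthInstance.maxSize 1000
set_option maxHeartbeats 4000000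

namespace Cfsg.Agent.Lib.JZM5

open Subgroup Cfsg.Agent.Lib.JZA

/-- The alternating group of degree five. -/
abbrev A5 := alternatingGroup (Fin 5)

theorem a5_pow8 : ∀ y : A5, y ^ 8 = 1 → y ^ 2 = 1 := by decide +kernel

theorem a5_tau0 : ∀ x y : A5, (x ^ 2 = 1 ∧ y ^ 2 = 1 ∧ x ≠ 1 ∧ y ≠ 1 ∧ x ≠ y ∧ x * y = y * x) →
    ∃ τ : A5, τ * x * τ⁻¹ = y ∧ τ * y * τ⁻¹ = x * y := by decide +kernel

theorem a5_tau (x y : A5) (h1 : x ^ 2 = 1) (h2 : y ^ 2 = 1) (h3 : x ≠ 1) (h4 : y ≠ 1) (h5 : x ≠ y)
    (h6 : x * y = y * x) : ∃ τ : A5, τ * x * τ⁻¹ = y ∧ τ * y * τ⁻¹ = x * y :=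
  a5_tau0 x y ⟨h1, h2, h3, h4, h5, h6⟩

theorem card_a5 : Nat.card A5 = 60 := by
  rw [Nat.card_eq_fintype_card]; decide +kernel

theorem two_sq : ∀ a : Multiplicative (ZMod 2), a ^ 2 = 1 := by decide

theorem card_two : Nat.card (Multiplicative (ZMod 2)) = 2 := by
  rw [Nat.card_eq_fintype_card]; decide

theorem card_orb_mul_stab {G X : Type*} [Group G] [MulAction G X] (x : X) :
    Nat.card (MulAction.orbit G x) * Nat.card (MulAction.stabilizer G x) = Nat.card G := by
  rw [Nat.card_congr (MulAction.orbitEquivQuotientStabilizer G x)]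
  exact (Subgroup.card_eq_card_quotient_mul_card_subgroup _).symm

variable {G : Type*} [Group G] {J : G} {T : Subgroup G}

theorem tau_T (e₀ : T ≃* A5) : ∀ x ∈ T, ∀ y ∈ T, x ^ 2 = 1 → y ^ 2 = 1 → x ≠ 1 → y ≠ 1 → x ≠ y →
    x * y = y * x → ∃ τ ∈ T, τ * x * τ⁻¹ = y ∧ τ * y * τ⁻¹ = x * y := by
  intro x hx y hy hx2 hy2 hx1 hy1 hxy hc
  have hinj : ∀ a b : T, e₀ a = e₀ b → (a : G) = b := fun a b h => congrArg Subtype.val (e₀.injective h)
  obtain ⟨τ, h1, h2⟩ := a5_tau (e₀ ⟨x, hx⟩) (e₀ ⟨y, hy⟩)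
    (by rw [← map_pow, show (⟨x, hx⟩ : T) ^ 2 = 1 from Subtype.ext hx2, map_one])
    (by rw [← map_pow, show (⟨y, hy⟩ : T) ^ 2 = 1 from Subtype.ext hy2, map_one])
    (fun h => hx1 (by
      have := congrArg Subtype.val ((map_eq_one_iff e₀ e₀.injective).1 h)
      exact this))
    (fun h => hy1 (by
      have := congrArg Subtype.val ((map_eq_one_iff e₀ e₀.injective).1 h)
      exact this))
    (fun h => hxy (hinj _ _ h))
    (by rw [← map_mul, ← map_mul]; exact congrArg e₀ (Subtype.ext hc))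
  refine ⟨(e₀.symm τ : G), (e₀.symm τ).2, ?_, ?_⟩
  · have h3 := congrArg e₀.symm h1
    simp only [map_mul, map_inv, MulEquiv.symm_apply_apply] at h3
    exact congrArg Subtype.val h3
  · have h3 := congrArg e₀.symm h2
    simp only [map_mul, map_inv, MulEquiv.symm_apply_apply] at h3
    exact congrArg Subtype.val h3

theorem pow_val_mul (hJ : orderOf J = 2) (a b : Multiplicative (ZMod 2)) :
    J ^ (Multiplicative.toAdd (a * b)).val
      = J ^ (Multiplicative.toAdd a).val * J ^ (Multiplicative.toAdd b).val := by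
  rw [toAdd_mul, ZMod.val_add, ← pow_add]
  have := pow_mod_orderOf J ((Multiplicative.toAdd a).val + (Multiplicative.toAdd b).val)
  rw [hJ] at this
  exact this

/-- The parametrisation of the centralizer. -/
noncomputable def psi (hJ : orderOf J = 2)
    (hd : Cfsg.IsInternalDirectProduct (zpowers J) T (centralizer ({J} : Set G))) (e₀ : T ≃* A5) :
    (Multiplicative (ZMod 2) × A5) →* centralizer ({J} : Set G) where
  toFun p := ⟨J ^ (Multiplicative.toAdd p.1).val * (e₀.symm p.2 : G),
    mul_mem (pow_mem (hd.1 (mem_zpowers J)) _) (hd.2.1 (e₀.symm p.2).2)⟩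
  map_one' := by
    apply Subtype.ext
    simp
  map_mul' := by
    intro p q
    apply Subtype.ext
    have hcomm : (e₀.symm p.2 : G) * J ^ (Multiplicative.toAdd q.1).val
        = J ^ (Multiplicative.toAdd q.1).val * (e₀.symm p.2 : G) :=
      ((comm_J hd (e₀.symm p.2).2).pow_left _).eq.symm
    change J ^ (Multiplicative.toAdd (p.1 * q.1)).val * (e₀.symm (p.2 * q.2) : G) =
      J ^ (Multiplicative.toAdd p.1).val * (e₀.symm p.2 : G) *
        (J ^ (Multiplicative.toAdd q.1).val * (e₀.symm q.2 : G))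
    rw [pow_val_mul hJ, map_mul, Subgroup.coe_mul]
    calc _ = J ^ (Multiplicative.toAdd p.1).val * (J ^ (Multiplicative.toAdd q.1).val *
            (e₀.symm p.2 : G)) * (e₀.symm q.2 : G) := by simp only [mul_assoc]
      _ = _ := by rw [← hcomm]; simp only [mul_assoc]

theorem psi_bij (hJ : orderOf J = 2)
    (hd : Cfsg.IsInternalDirectProduct (zpowers J) T (centralizer ({J} : Set G))) (e₀ : T ≃* A5) :
    Function.Bijective (psi hJ hd e₀) := by
  constructor
  · rw [injective_iff_map_eq_one]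
    rintro ⟨a, y⟩ h
    have h1 : J ^ (Multiplicative.toAdd a).val * (e₀.symm y : G) = 1 := congrArg Subtype.val h
    have hv : (Multiplicative.toAdd a).val < 2 := ZMod.val_lt _
    rcases (by omega : (Multiplicative.toAdd a).val = 0 ∨ (Multiplicative.toAdd a).val = 1)
      with h0 | h0
    · rw [h0, pow_zero, one_mul] at h1
      have hy : y = 1 := by
        have h2 : e₀.symm y = 1 := Subtype.ext h1
        simpa using h2
      have ha : a = 1 := by
        have h3 := (ZMod.val_eq_zero _).1 h0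
        exact Multiplicative.toAdd.injective h3
      rw [hy, ha]; rfl
    · exfalso
      rw [h0, pow_one] at h1
      apply J_not_mem hJ hd
      have h2 : J = (e₀.symm y : G)⁻¹ := eq_inv_of_mul_eq_one_left h1
      rw [h2]
      exact T.inv_mem (e₀.symm y).2
  · rintro ⟨c, hc⟩
    rcases (mem_cent_iff hJ hd).1 hc with h | h
    · refine ⟨(1, e₀ ⟨c, h⟩), Subtype.ext ?_⟩
      change J ^ (Multiplicative.toAdd (1 : Multiplicative (ZMod 2))).val *
        (e₀.symm (e₀ ⟨c, h⟩) : G) = c
      rw [MulEquiv.symm_apply_apply]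
      simp
    · refine ⟨(Multiplicative.ofAdd 1, e₀ ⟨J * c, h⟩), Subtype.ext ?_⟩
      change J ^ (Multiplicative.toAdd (Multiplicative.ofAdd (1 : ZMod 2))).val *
        (e₀.symm (e₀ ⟨J * c, h⟩) : G) = c
      rw [MulEquiv.symm_apply_apply]
      have h1 : (Multiplicative.toAdd (Multiplicative.ofAdd (1 : ZMod 2))).val = 1 := by decide
      rw [h1, pow_one]
      change J * (J * c) = c
      rw [← mul_assoc, mul_J hJ, one_mul]

/-- The isomorphism from the centralizer to `2 × A₅`. -/
noncomputable def eCJ (hJ : orderOf J = 2)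
    (hd : Cfsg.IsInternalDirectProduct (zpowers J) T (centralizer ({J} : Set G))) (e₀ : T ≃* A5) :
    centralizer ({J} : Set G) ≃* (Multiplicative (ZMod 2) × A5) :=
  (MulEquiv.ofBijective (psi hJ hd e₀) (psi_bij hJ hd e₀)).symm

section Sylow2

variable [Finite G]

theorem card_cent (e : centralizer ({J} : Set G) ≃* (Multiplicative (ZMod 2) × A5)) :
    Nat.card (centralizer ({J} : Set G)) = 120 := by
  rw [Nat.card_congr e.toEquiv, Nat.card_prod, card_a5, card_two]

theorem card_sylow8 (e : centralizer ({J} : Set G) ≃* (Multiplicative (ZMod 2) × A5))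
    (P : Sylow 2 G) (hP : (P : Subgroup G) ≤ centralizer ({J} : Set G)) : Nat.card P = 8 := by
  haveI : Fact (Nat.Prime 2) := ⟨Nat.prime_two⟩
  have hC := card_cent e
  have h1 := P.card_eq_multiplicity
  have h2 : 120 ∣ Nat.card G := by
    rw [← hC]; exact Subgroup.card_subgroup_dvd_card _
  have h3 : Nat.card P ∣ 120 := by
    rw [← hC]; exact Subgroup.card_dvd_of_le hP
  rw [h1] at h3 ⊢
  set f := (Nat.card G).factorization 2 with hf
  have hn : Nat.card G ≠ 0 := Nat.card_pos.ne'
  have h4 : 3 ≤ f := (Nat.Prime.pow_dvd_iff_le_factorization Nat.prime_two hn).1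
    (Dvd.dvd.trans (by norm_num) h2)
  have h5 : f ≤ 3 := by
    by_contra hcon
    have h6 : (2 : ℕ) ^ 4 ∣ 2 ^ f := pow_dvd_pow 2 (by omega)
    have h7 := h6.trans h3
    norm_num at h7
  have h8 : f = 3 := le_antisymm h5 h4
  rw [h8]; norm_num

theorem sq_of_mem (e : centralizer ({J} : Set G) ≃* (Multiplicative (ZMod 2) × A5))
    (P : Sylow 2 G) (hP : (P : Subgroup G) ≤ centralizer ({J} : Set G)) (h8 : Nat.card P = 8) :
    ∀ x ∈ P, x ^ 2 = 1 := by
  intro x hx
  have h1 : (⟨x, hx⟩ : (P : Subgroup G)) ^ Nat.card (P : Subgroup G) = 1 := pow_card_eq_one'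
  rw [h8] at h1
  have h2 : x ^ 8 = 1 := congrArg Subtype.val h1
  set c : centralizer ({J} : Set G) := ⟨x, hP hx⟩ with hc
  have h3 : c ^ 8 = 1 := Subtype.ext h2
  have h4 : (e c) ^ 8 = 1 := by rw [← map_pow, h3, map_one]
  have h5 : (e c).2 ^ 8 = 1 := by
    have := congrArg Prod.snd h4
    simpa using this
  have h6 : (e c) ^ 2 = 1 := Prod.ext (two_sq _) (a5_pow8 _ h5)
  have h7 : c ^ 2 = 1 := by
    apply e.injective
    rw [map_pow, h6, map_one]
  exact congrArg Subtype.val h7

end Sylow2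

end Cfsg.Agent.Lib.JZM5
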