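import Mathlib
import Cfsg.Agent.Lib.JZM5a

/-!
# Centralizer `2 × A₅`: simplicity
-/

set_option autoImplicit false
set_option linter.unusedVariables false
set_option linter.unusedSectionVars false
set_option linter.style.haveILetI false
set_option maxRecDepth 100000
set_option maxHeartbeats 4000000

namespace Cfsg.Agent.Lib.JZM5

open Subgroup Cfsg.Agent.Lib.JZA

variable {G : Type*} [Group G] {J : G} {T : Subgroup G}

theorem T_le (e₀ : T ≃* A5) {N : Subgroup G} (hN : N.Normal) {w : G} (hwN : w ∈ N) (hwT : w ∈ T)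
    (hw : w ≠ 1) : T ≤ N := by
  haveI : IsSimpleGroup A5 := alternatingGroup.isSimpleGroup (by simp)
  haveI : IsSimpleGroup T := e₀.isSimpleGroup
  have hNT : (N.subgroupOf T).Normal := hN.subgroupOf T
  rcases hNT.eq_bot_or_eq_top with h | h
  · exfalso
    have h1 : (⟨w, hwT⟩ : T) ∈ N.subgroupOf T := hwN
    rw [h, mem_bot] at h1
    exact hw (congrArg Subtype.val h1)
  · intro t ht
    have h1 : (⟨t, ht⟩ : T) ∈ N.subgroupOf T := by rw [h]; exact mem_top _
    exact h1

section Cnt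

variable [Finite G]

theorem two_dvd_of_inv {N : Subgroup G} {z : G} (hzN : z ∈ N) (hz2 : z ^ 2 = 1) (hz1 : z ≠ 1) :
    2 ∣ Nat.card N := by
  have h1 : orderOf z = 2 := orderOf_eq_prime hz2 hz1
  have h2 : orderOf (⟨z, hzN⟩ : N) = 2 := by
    rw [Subgroup.orderOf_mk]; exact h1
  rw [← h2]
  exact orderOf_dvd_natCard _

theorem inverts {N : Subgroup G} [hN : N.Normal] {u : G} (hu : u ^ 2 = 1)
    (hfree : ∀ c ∈ N, u * c = c * u → c = 1) : ∀ c ∈ N, u * c * u⁻¹ = c⁻¹ := by
  intro c hc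
  let φ : MulAut N := MulAut.conjNormal u
  have hφ : ∀ a : N, ((φ a : N) : G) = u * a * u⁻¹ := fun a => MulAut.conjNormal_apply u a
  have hfp : MonoidHom.FixedPointFree φ := by
    intro g hg
    apply Subtype.ext
    apply hfree g g.2
    have h1 := congrArg Subtype.val hg
    rw [hφ, mul_inv_eq_iff_eq_mul] at h1
    exact h1
  have h2 : ∀ a : N, φ (φ a) = a := by
    intro a
    apply Subtype.ext
    rw [hφ, hφ]
    have h3 : u⁻¹ = u := inv_eq_of_mul_eq_one_left (by rw [← pow_two]; exact hu)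
    rw [h3]
    calc u * (u * (a : G) * u) * u = (u ^ 2) * (a : G) * (u ^ 2) := by
          simp only [pow_two, mul_assoc]
      _ = a := by rw [hu]; simp
  have h4 := MonoidHom.FixedPointFree.coe_eq_inv_of_involutive hfp h2
  have h5 := congrFun h4 ⟨c, hc⟩
  have h6 := congrArg Subtype.val h5
  rw [hφ] at h6
  exact h6

theorem five_le {α : Type*} [Finite α] (a b c d e : α) (hab : a ≠ b) (hac : a ≠ c) (had : a ≠ d)
    (hae : a ≠ e) (hbc : b ≠ c) (hbd : b ≠ d) (hbe : b ≠ e) (hcd : c ≠ d) (hce : c ≠ e)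
    (hde : d ≠ e) : 5 ≤ Nat.card α := by
  classical
  letI := Fintype.ofFinite α
  have h : ({a, b, c, d, e} : Finset α).card = 5 := by
    rw [Finset.card_insert_of_notMem, Finset.card_insert_of_notMem, Finset.card_insert_of_notMem,
      Finset.card_insert_of_notMem, Finset.card_singleton]
    · simpa using hde
    · simp [hcd, hce]
    · simp [hbc, hbd, hbe]
    · simp [hab, hac, had, hae]
  rw [Nat.card_eq_fintype_card, ← h]
  exact Finset.card_le_univ _

theorem exists_notMem {α : Type*} [Finite α] (s : Finset α) (h : s.card < Nat.card α) :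
    ∃ z, z ∉ s := by
  classical
  letI := Fintype.ofFinite α
  by_contra hcon
  push Not at hcon
  have h1 : s = Finset.univ := Finset.eq_univ_iff_forall.2 hcon
  rw [h1, Finset.card_univ, Nat.card_eq_fintype_card] at h
  omega

theorem card_inf (hJ : orderOf J = 2)
    (hd : Cfsg.IsInternalDirectProduct (zpowers J) T (centralizer ({J} : Set G)))
    (P : Sylow 2 G) (hJP : J ∈ P) (hc : ∀ x ∈ P, x * J = J * x) (h8 : Nat.card P = 8) :
    Nat.card ↥((P : Subgroup G) ⊓ T) = 4 := by
  haveI : Fact (Nat.Prime 2) := ⟨Nat.prime_two⟩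
  obtain ⟨k, hk⟩ := index_inf hJ hd P hJP hc
  have h1 := Subgroup.card_mul_index ((P : Subgroup G) ⊓ T)
  have h2 := Subgroup.card_mul_index (P : Subgroup G)
  have h3 : ¬ 2 ∣ (P : Subgroup G).index := P.not_dvd_index
  have h4 : Nat.card ↥((P : Subgroup G) ⊓ T) ∣ Nat.card (P : Subgroup G) :=
    Subgroup.card_dvd_of_le inf_le_left
  have h8' : Nat.card (P : Subgroup G) = 8 := h8
  rw [h8'] at h2 h4
  rw [hk, ← h2] at h1
  have h5 : Nat.card ↥((P : Subgroup G) ⊓ T) ≤ 8 := Nat.le_of_dvd (by norm_num) h4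
  set d := Nat.card ↥((P : Subgroup G) ⊓ T) with hd'
  set i := (P : Subgroup G).index with hi
  interval_cases d <;> first | rfl | omega

/-- Listing of `P ⊓ T`. -/
theorem exists_xy (hJ : orderOf J = 2)
    (hd : Cfsg.IsInternalDirectProduct (zpowers J) T (centralizer ({J} : Set G)))
    (P : Sylow 2 G) (hJP : J ∈ P) (hc : ∀ x ∈ P, x * J = J * x) (h8 : Nat.card P = 8)
    (hel : ∀ x ∈ P, x ^ 2 = 1) :
    ∃ x y : G, x ∈ P ∧ x ∈ T ∧ y ∈ P ∧ y ∈ T ∧ x ≠ 1 ∧ y ≠ 1 ∧ x ≠ y ∧
      ∀ z, z ∈ P → z ∈ T → z = 1 ∨ z = x ∨ z = y ∨ z = x * y := by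
  classical
  have h4 := card_inf hJ hd P hJP hc h8
  set D : Subgroup G := (P : Subgroup G) ⊓ T with hD
  obtain ⟨x, hx⟩ := exists_notMem ({1} : Finset D) (by rw [h4]; simp)
  obtain ⟨y, hy⟩ := exists_notMem ({1, x} : Finset D) (by
    rw [h4]
    exact lt_of_le_of_lt (Finset.card_le_two) (by norm_num))
  simp only [Finset.mem_singleton, Finset.mem_insert, not_or] at hx hy
  have hx1 : (x : G) ≠ 1 := fun h => hx (Subtype.ext h)
  have hy1 : (y : G) ≠ 1 := fun h => hy.1 (Subtype.ext h)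
  have hxy : (x : G) ≠ y := fun h => hy.2 (Subtype.ext h.symm)
  refine ⟨x, y, x.2.1, x.2.2, y.2.1, y.2.2, hx1, hy1, hxy, ?_⟩
  intro z hzP hzT
  by_contra hcon
  push Not at hcon
  obtain ⟨hz1, hzx, hzy, hzxy⟩ := hcon
  have hxinv : (x : G) * x = 1 := by rw [← pow_two]; exact hel _ x.2.1
  have h5 := five_le (1 : D) x y (x * y) ⟨z, hzP, hzT⟩
    (fun h => hx1 (congrArg Subtype.val h).symm)
    (fun h => hy1 (congrArg Subtype.val h).symm)
    (fun h => hxy (by
      have h6 : (1 : G) = x * y := congrArg Subtype.val h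
      have h7 : (x : G) * x = x * y := by rw [hxinv]; exact h6
      exact mul_left_cancel h7))
    (fun h => hz1 (congrArg Subtype.val h).symm)
    (fun h => hxy (congrArg Subtype.val h))
    (fun h => hy1 (by
      have h6 : (x : G) = x * y := congrArg Subtype.val h
      have h7 : (x : G) * 1 = x * y := by rw [mul_one]; exact h6
      exact (mul_left_cancel h7).symm))
    (fun h => hzx (congrArg Subtype.val h).symm)
    (fun h => hx1 (by
      have h6 : (y : G) = x * y := congrArg Subtype.val h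
      have h7 : 1 * (y : G) = x * y := by rw [one_mul]; exact h6
      exact (mul_right_cancel h7).symm))
    (fun h => hzy (congrArg Subtype.val h).symm)
    (fun h => hzxy (congrArg Subtype.val h).symm)
  omega

/-- A counting lemma for a transitive conjugation action. -/
theorem card_transitive {H : Subgroup G} (S : Set G) (hS : ∀ n ∈ H, ∀ u ∈ S, n * u * n⁻¹ ∈ S)
    (hJ : J ∈ S) (htr : ∀ u ∈ S, ∃ n ∈ H, n * J * n⁻¹ = u) :
    Nat.card H = Nat.card S * Nat.card ↥(H ⊓ centralizer ({J} : Set G)) := by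
  letI act : MulAction H S :=
    { smul := fun n u => ⟨(n : G) * u * (n : G)⁻¹, hS n n.2 u u.2⟩
      one_smul := fun u => Subtype.ext (by
        change (1 : G) * u * (1 : G)⁻¹ = u
        simp)
      mul_smul := fun a b u => Subtype.ext (by
        change ((a : G) * b) * u * ((a : G) * b)⁻¹ = a * (b * u * (b : G)⁻¹) * (a : G)⁻¹
        group) }
  set x0 : S := ⟨J, hJ⟩ with hx0
  have h1 := card_orb_mul_stab (G := H) x0
  have horb : MulAction.orbit H x0 = Set.univ := by
    ext y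
    simp only [Set.mem_univ, iff_true]
    obtain ⟨n, hn, hny⟩ := htr y y.2
    exact ⟨⟨n, hn⟩, Subtype.ext hny⟩
  rw [horb, Nat.card_congr (Equiv.Set.univ S)] at h1
  rw [← h1]
  congr 1
  apply Nat.card_congr
  refine ⟨fun s => ⟨s.1.1, s.1.2, ?_⟩, fun a => ⟨⟨a.1, a.2.1⟩, ?_⟩, fun _ => rfl, fun _ => rfl⟩
  · have h2 : (s.1 : H) • x0 = x0 := s.2
    have h3 : (s.1.1 : G) * J * (s.1.1 : G)⁻¹ = J := congrArg Subtype.val h2
    change (s.1.1 : G) ∈ centralizer ({J} : Set G)
    rw [mem_centralizer_singleton_iff]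
    rw [mul_inv_eq_iff_eq_mul] at h3
    exact h3
  · apply Subtype.ext
    have h2 : (a.1 : G) ∈ centralizer ({J} : Set G) := a.2.2
    rw [mem_centralizer_singleton_iff] at h2
    change (a.1 : G) * J * (a.1 : G)⁻¹ = J
    rw [mul_inv_eq_iff_eq_mul]
    exact h2

end Cnt

end Cfsg.Agent.Lib.JZM5
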