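import Mathlib
import Cfsg.Agent.Lib.JZM5b

/-!
# Centralizer `2 × A₅`: simplicity, main steps
-/

set_option autoImplicit false
set_option linter.unusedVariables false
set_option linter.unusedSectionVars false
set_option linter.style.haveILetI false
set_option maxRecDepth 100000
set_option maxHeartbeats 4000000

namespace Cfsg.Agent.Lib.JZM5

open Subgroup Cfsg.Agent.Lib.JZA
open scoped Pointwise

variable {G : Type*} [Group G] [Finite G] {J : G} {T : Subgroup G}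

theorem no_odd_normal (hJ : orderOf J = 2)
    (hd : Cfsg.IsInternalDirectProduct (zpowers J) T (centralizer ({J} : Set G))) (e₀ : T ≃* A5)
    (P : Sylow 2 G) (hJP : J ∈ P) (hel : ∀ x ∈ P, x ^ 2 = 1)
    (horb : ∀ u ∈ P, u ≠ 1 → ∃ n : G, n * J * n⁻¹ = u)
    {x : G} (hxP : x ∈ P) (hxT : x ∈ T) (hx1 : x ≠ 1)
    {N : Subgroup G} (hN : N.Normal) (hodd : ¬ 2 ∣ Nat.card N) : N = ⊥ := by
  have hNT : ∀ w ∈ N, w ∈ T → w = 1 := by
    intro w hwN hwT
    by_contra hw
    have h1 := T_le e₀ hN hwN hwT hw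
    exact hodd (two_dvd_of_inv (h1 hxT) (hel x hxP) hx1)
  have hC : ∀ c ∈ N, J * c = c * J → c = 1 := by
    intro c hc hcJ
    have hmem : c ∈ centralizer ({J} : Set G) := by
      rw [mem_centralizer_singleton_iff]; exact hcJ.symm
    have h1 := sq_mem hJ hd hmem
    have h2 := hNT _ (N.pow_mem hc 2) h1
    by_contra hc1
    exact hodd (two_dvd_of_inv hc h2 hc1)
  have hU : ∀ u ∈ P, u ≠ 1 → ∀ c ∈ N, u * c = c * u → c = 1 := by
    intro u huP hu1 c hc huc
    obtain ⟨n, hn⟩ := horb u huP hu1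
    have h1 : n⁻¹ * c * n ∈ N := by
      have := hN.conj_mem c hc n⁻¹
      simpa using this
    have h2 : J * (n⁻¹ * c * n) = (n⁻¹ * c * n) * J := by
      subst hn
      calc J * (n⁻¹ * c * n) = n⁻¹ * (n * J * n⁻¹ * c) * n := by group
        _ = n⁻¹ * (c * (n * J * n⁻¹)) * n := by rw [huc]
        _ = _ := by group
    have h3 := hC _ h1 h2
    have h4 : c = n * (n⁻¹ * c * n) * n⁻¹ := by group
    rw [h4, h3]; simp
  haveI := hN
  have hinvJ := inverts (N := N) (sq_J hJ) hC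
  have hinvx := inverts (N := N) (hel x hxP) (hU x hxP hx1)
  have hJx : J * x ≠ 1 := by
    intro h
    apply J_not_mem hJ hd
    rw [eq_inv_of_mul_eq_one_left h]
    exact T.inv_mem hxT
  rw [Subgroup.eq_bot_iff_forall]
  intro c hc
  apply hU (J * x) (mul_mem hJP hxP) hJx c hc
  have h1 := hinvx c hc
  have h2 := hinvJ c⁻¹ (N.inv_mem hc)
  rw [inv_inv] at h2
  calc J * x * c = (J * (x * c * x⁻¹) * J⁻¹) * (J * x) := by group
    _ = c * (J * x) := by rw [h1, h2]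

theorem normalizer_le (hJ : orderOf J = 2)
    (hd : Cfsg.IsInternalDirectProduct (zpowers J) T (centralizer ({J} : Set G))) (e₀ : T ≃* A5)
    (P : Sylow 2 G) (hJP : J ∈ P) (hc : ∀ x ∈ P, x * J = J * x) (h8 : Nat.card P = 8)
    (hel : ∀ x ∈ P, x ^ 2 = 1)
    (horb : ∀ u ∈ P, u ≠ 1 → ∃ n ∈ normalizer ((P : Subgroup G) : Set G), n * J * n⁻¹ = u)
    {x y : G} (hxP : x ∈ P) (hxT : x ∈ T) (hyP : y ∈ P) (hyT : y ∈ T) (hx1 : x ≠ 1) (hy1 : y ≠ 1)
    (hxy : x ≠ y) (hlist : ∀ z, z ∈ P → z ∈ T → z = 1 ∨ z = x ∨ z = y ∨ z = x * y)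
    {N : Subgroup G} (hN : N.Normal) (hCN : centralizer ({J} : Set G) ≤ N) :
    normalizer ((P : Subgroup G) : Set G) ≤ N := by
  classical
  set NP : Subgroup G := normalizer ((P : Subgroup G) : Set G) with hNP
  set S : Set G := {u | u ∈ (P : Subgroup G) ∧ u ≠ 1} with hSdef
  have hS : ∀ n ∈ NP, ∀ u ∈ S, n * u * n⁻¹ ∈ S := by
    intro n hn u hu
    refine ⟨(mem_set_normalizer_iff.1 hn u).1 hu.1, ?_⟩
    intro h
    apply hu.2
    have h1 : u = n⁻¹ * (n * u * n⁻¹) * n := by group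
    rw [h1, h]; simp
  have hcard := card_transitive (H := NP) S hS ⟨hJP, ne_one hJ⟩ (fun u hu => horb u hu.1 hu.2)
  have hS7 : Nat.card S = 7 := by
    have h1 : S = ((P : Subgroup G) : Set G) \ {1} := by
      ext u
      exact ⟨fun h => ⟨h.1, fun h' => h.2 h'⟩, fun h => ⟨h.1, fun h' => h.2 h'⟩⟩
    rw [Nat.card_coe_set_eq, h1, Set.ncard_sdiff_singleton_of_mem (one_mem (P : Subgroup G)),
      ← Nat.card_coe_set_eq]
    have h2 : Nat.card ↥((P : Subgroup G) : Set G) = 8 := h8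
    rw [h2]
  rw [hS7] at hcard
  set A : Subgroup G := NP ⊓ centralizer ({J} : Set G) with hA
  set R : Subgroup G := NP ⊓ N with hR
  have hAR : A ≤ R := fun a ha => ⟨ha.1, hCN ha.2⟩
  have hRNP : R ≤ NP := inf_le_left
  obtain ⟨d, hd'⟩ : Nat.card A ∣ Nat.card R := card_dvd_of_le hAR
  obtain ⟨m, hm⟩ : Nat.card R ∣ Nat.card NP := card_dvd_of_le hRNP
  have hApos : 0 < Nat.card A := Nat.card_pos
  have h7 : d * m = 7 := by
    have h1 : Nat.card A * (d * m) = Nat.card A * 7 := by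
      rw [← mul_assoc, ← hd', ← hm, hcard, mul_comm]
    exact Nat.eq_of_mul_eq_mul_left hApos h1
  have hd7 : d ∣ 7 := ⟨m, h7.symm⟩
  rcases (Nat.dvd_prime (by norm_num : Nat.Prime 7)).1 hd7 with h1 | h1
  · -- `R = A`: contradiction
    exfalso
    rw [h1, mul_one] at hd'
    have hRA : A = R := Subgroup.eq_of_le_of_card_ge hAR (le_of_eq hd')
    have hcxy : x * y = y * x := by
      have h2 := hel _ (mul_mem hxP hyP)
      have hx2 := hel _ hxP
      have hy2 := hel _ hyP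
      have h3 : x * y * (x * y) = 1 := by rw [← pow_two]; exact h2
      have h4 : x * x = 1 := by rw [← pow_two]; exact hx2
      have h5 : y * y = 1 := by rw [← pow_two]; exact hy2
      have h6 : x⁻¹ = x := inv_eq_of_mul_eq_one_left h4
      have h7 : y⁻¹ = y := inv_eq_of_mul_eq_one_left h5
      have h8' := eq_inv_of_mul_eq_one_left h3
      rw [mul_inv_rev, h6, h7] at h8'
      exact h8'
    obtain ⟨τ, hτT, hτx, hτy⟩ := tau_T e₀ x hxT y hyT (hel x hxP) (hel y hyP) hx1 hy1 hxy hcxy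
    have hτJ : τ * J = J * τ := (comm_J hd hτT).eq.symm
    have hτD : ∀ w, w ∈ P → w ∈ T → τ * w * τ⁻¹ ∈ P := by
      intro w hwP hwT
      rcases hlist w hwP hwT with rfl | rfl | rfl | rfl
      · simp only [mul_one, mul_inv_cancel]; exact one_mem _
      · rw [hτx]; exact hyP
      · rw [hτy]; exact mul_mem hxP hyP
      · have : τ * (x * y) * τ⁻¹ = (τ * x * τ⁻¹) * (τ * y * τ⁻¹) := by group
        rw [this, hτx, hτy]
        exact mul_mem hyP (mul_mem hxP hyP)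
    have hτNP : τ ∈ NP := by
      apply Subgroup.mem_normalizer_fintype
      intro u hu
      have hu' : u ∈ centralizer ({J} : Set G) := by
        rw [mem_centralizer_singleton_iff]; exact hc u hu
      rcases (mem_cent_iff hJ hd).1 hu' with h | h
      · exact hτD u hu h
      · have h2 := hτD (J * u) (mul_mem hJP hu) h
        have h3 : τ * u * τ⁻¹ = J * (τ * (J * u) * τ⁻¹) := by
          calc τ * u * τ⁻¹ = (J * J) * τ * u * τ⁻¹ := by rw [mul_J hJ, one_mul]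
            _ = J * (J * τ) * u * τ⁻¹ := by simp only [mul_assoc]
            _ = J * (τ * J) * u * τ⁻¹ := by rw [hτJ]
            _ = _ := by simp only [mul_assoc]
        rw [SetLike.mem_coe, h3]
        exact mul_mem hJP h2
    obtain ⟨n, hnNP, hn⟩ := horb x hxP hx1
    have hkR : n⁻¹ * τ * n ∈ R := by
      have hk1 : n⁻¹ * τ * n ∈ NP := mul_mem (mul_mem (inv_mem hnNP) hτNP) hnNP
      have hk2 : n⁻¹ * τ * n ∈ N := by
        have := hN.conj_mem τ (hCN (hd.2.1 hτT)) n⁻¹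
        simpa using this
      exact ⟨hk1, hk2⟩
    rw [← hRA] at hkR
    have hk : (n⁻¹ * τ * n) * J = J * (n⁻¹ * τ * n) :=
      (mem_centralizer_singleton_iff).1 hkR.2
    have hτc : τ * x = x * τ := by
      rw [← hn]
      calc τ * (n * J * n⁻¹) = n * ((n⁻¹ * τ * n) * J) * n⁻¹ := by group
        _ = n * (J * (n⁻¹ * τ * n)) * n⁻¹ := by rw [hk]
        _ = _ := by group
    apply hxy
    rw [← hτx, hτc]
    simp
  · -- `R = NP`
    have hm1 : m = 1 := by rw [h1] at h7; omega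
    rw [hm1, mul_one] at hm
    have hRe : R = NP := Subgroup.eq_of_le_of_card_ge hRNP (le_of_eq hm)
    intro n hn
    rw [← hRe] at hn
    exact hn.2

theorem even_normal_top (hJ : orderOf J = 2)
    (hd : Cfsg.IsInternalDirectProduct (zpowers J) T (centralizer ({J} : Set G))) (e₀ : T ≃* A5)
    (P : Sylow 2 G) (hJP : J ∈ P) (hc : ∀ x ∈ P, x * J = J * x) (h8 : Nat.card P = 8)
    (hel : ∀ x ∈ P, x ^ 2 = 1)
    (horb : ∀ u ∈ P, u ≠ 1 → ∃ n ∈ normalizer ((P : Subgroup G) : Set G), n * J * n⁻¹ = u)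
    {x y : G} (hxP : x ∈ P) (hxT : x ∈ T) (hyP : y ∈ P) (hyT : y ∈ T) (hx1 : x ≠ 1) (hy1 : y ≠ 1)
    (hxy : x ≠ y) (hlist : ∀ z, z ∈ P → z ∈ T → z = 1 ∨ z = x ∨ z = y ∨ z = x * y)
    {N : Subgroup G} (hN : N.Normal) (hev : 2 ∣ Nat.card N) : N = ⊤ := by
  haveI : Fact (Nat.Prime 2) := ⟨Nat.prime_two⟩
  haveI := hN
  obtain ⟨w, hw⟩ := exists_prime_orderOf_dvd_card' 2 hev
  have hw' : orderOf (w : G) = 2 := by rw [Subgroup.orderOf_coe]; exact hw
  have hw2 : (w : G) ^ 2 = 1 := by rw [← hw']; exact pow_orderOf_eq_one _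
  have hw1 : (w : G) ≠ 1 := ne_one hw'
  have hpg : IsPGroup 2 (zpowers (w : G)) := by
    rw [IsPGroup.iff_card]
    refine ⟨1, ?_⟩
    rw [Nat.card_zpowers, hw', pow_one]
  obtain ⟨Q, hQ⟩ := hpg.exists_le_sylow
  obtain ⟨g, hg⟩ := MulAction.exists_smul_eq G P Q
  have hwQ : (w : G) ∈ (Q : Subgroup G) := hQ (mem_zpowers _)
  rw [← hg] at hwQ
  have hu : g⁻¹ * w * g ∈ P := by
    change (w : G) ∈ MulAut.conj g • (P : Subgroup G) at hwQ
    rw [Subgroup.mem_pointwise_smul_iff_inv_smul_mem] at hwQ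
    have h : g⁻¹ * w * g ∈ (P : Subgroup G) := by simpa [MulAut.smul_def] using hwQ
    exact h
  have huN : g⁻¹ * w * g ∈ N := by
    have := hN.conj_mem (w : G) w.2 g⁻¹
    simpa using this
  have hu1 : g⁻¹ * w * g ≠ 1 := by
    intro h
    apply hw1
    have h1 : (w : G) = g * (g⁻¹ * w * g) * g⁻¹ := by group
    rw [h1, h]; simp
  obtain ⟨n, -, hn⟩ := horb _ hu hu1
  have hJN : J ∈ N := by
    have := hN.conj_mem _ huN n⁻¹
    rw [← hn] at this
    have h1 : n⁻¹ * (n * J * n⁻¹) * n⁻¹⁻¹ = J := by group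
    rwa [h1] at this
  have hPN : (P : Subgroup G) ≤ N := by
    intro v hv
    by_cases hv1 : v = 1
    · rw [hv1]; exact one_mem _
    · obtain ⟨n', -, hn'⟩ := horb v hv hv1
      rw [← hn']
      exact hN.conj_mem J hJN n'
  have hTN : T ≤ N := T_le e₀ hN (hPN hxP) hxT hx1
  have hCN : centralizer ({J} : Set G) ≤ N := by
    intro c hc'
    rcases (mem_cent_iff hJ hd).1 hc' with h | h
    · exact hTN h
    · have h1 : c = J * (J * c) := by rw [← mul_assoc, mul_J hJ, one_mul]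
      rw [h1]
      exact mul_mem hJN (hTN h)
  have hNPN := normalizer_le hJ hd e₀ P hJP hc h8 hel horb hxP hxT hyP hyT hx1 hy1 hxy hlist hN hCN
  have hF : normalizer ((P : Subgroup G) : Set G) ⊔ N = ⊤ := Sylow.normalizer_sup_eq_top' (N := N) P hPN
  rw [sup_eq_right.2 hNPN] at hF
  exact hF

theorem simple_of (hJ : orderOf J = 2)
    (hd : Cfsg.IsInternalDirectProduct (zpowers J) T (centralizer ({J} : Set G))) (e₀ : T ≃* A5)
    (P : Sylow 2 G) (hJP : J ∈ P) (hc : ∀ x ∈ P, x * J = J * x) (h8 : Nat.card P = 8)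
    (hel : ∀ x ∈ P, x ^ 2 = 1)
    (horb : ∀ u ∈ P, u ≠ 1 → ∃ n ∈ normalizer ((P : Subgroup G) : Set G), n * J * n⁻¹ = u) :
    IsSimpleGroup G := by
  obtain ⟨x, y, hxP, hxT, hyP, hyT, hx1, hy1, hxy, hlist⟩ := exists_xy hJ hd P hJP hc h8 hel
  haveI : Nontrivial G := ⟨⟨J, 1, ne_one hJ⟩⟩
  refine { eq_bot_or_eq_top_of_normal := ?_ }
  intro N hN
  by_cases hev : 2 ∣ Nat.card N
  · exact Or.inr (even_normal_top hJ hd e₀ P hJP hc h8 hel horb hxP hxT hyP hyT hx1 hy1 hxy hlist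
      hN hev)
  · refine Or.inl (no_odd_normal hJ hd e₀ P hJP hel ?_ hxP hxT hx1 hN hev)
    intro u hu hu1
    obtain ⟨n, -, hn⟩ := horb u hu hu1
    exact ⟨n, hn⟩

end Cfsg.Agent.Lib.JZM5
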