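import Mathlib
import Cfsg.Agent.Lib.BlockMajorForm
import Cfsg.Agent.Lib.GalSimplex
import Cfsg.Agent.Lib.BlockSecond

/-!
# Counting the characters of a block with a simplex form on a major subsection

For a `p`-element `y` with centralizer `H` and a block `b` of `H` inducing `B`: if the form `Q` of `b`
is, in integer coordinates, the simplex form `(1 + e m) ∑ x y - m (∑ ε x) (∑ ε y)`, `l(b) ≤ e`, then at most
`p ^ d(b)` members `χ` of `B` have a nonvanishing `b`-part at `y`.
-/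

set_option autoImplicit false
set_option linter.unusedSectionVars false
set_option linter.unusedVariables false
set_option linter.style.haveILetI false

namespace Cfsg.Agent.Lib.K0Form

open Cfsg Cfsg.Agent.Lib.CharBasic Cfsg.Agent.Lib.CharInd Cfsg.Agent.Lib.CharIntegrality
open Cfsg.Agent.Lib.BlockLocal Cfsg.Agent.Lib.BlockIdem Cfsg.Agent.Lib.BlockQ
open Cfsg.Agent.Lib.BlockOrtho Cfsg.Agent.Lib.BlockVal Cfsg.Agent.Lib.BlockMajor
open Cfsg.Agent.Lib.BlockMajorForm
open Cfsg.Agent.Lib.BlockSubsection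
open scoped ComplexConjugate

universe u

variable {G : Type u} [Group G] [Fintype G] {p : ℕ} [hpF : Fact p.Prime] {M : Ideal AlgInt}
variable {y : G} {H : Subgroup G} [Fintype H]

/-- The coordinates of a contribution. -/
noncomputable def wK {J : Type*} (hH : H = Subgroup.centralizer ({y} : Set G)) (b : Set (IrrCharacter H))
    (x : J → IrrCharacter H → ℤ) (χ : IrrCharacter G) (j : J) : ℂ :=
  ∑ ξ ∈ bF b, vv hH χ ξ * (x j ξ : ℂ)

theorem RR_eq_simplex (hM : IsPModular p M) (hH : H = Subgroup.centralizer ({y} : Set G))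
    {b : Set (IrrCharacter H)} (hb : IsPBlock M b)
    {J : Type*} [Fintype J] (ε : J → ℤ) (P m : ℕ) (x : J → IrrCharacter H → ℤ)
    (hQ : ∀ ξ ∈ bF b, ∀ ξ' ∈ bF b, Q p b ξ ξ' =
      (P : ℤ) * ∑ j, x j ξ * x j ξ' - (m : ℤ) * ((∑ j, ε j * x j ξ) * (∑ j, ε j * x j ξ')))
    (χ : IrrCharacter G) :
    RR p hH b χ χ = (P : ℂ) * ∑ j, wK hH b x χ j * conj (wK hH b x χ j) -
      (m : ℂ) * ((∑ j, (ε j : ℂ) * wK hH b x χ j) * conj (∑ j, (ε j : ℂ) * wK hH b x χ j)) := by
  classical
  rw [RR_eq hM hH hb]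
  set v := vv hH χ with hv
  have h1 : ∑ j, wK hH b x χ j * conj (wK hH b x χ j) =
      ∑ ξ ∈ bF b, ∑ ξ' ∈ bF b, v ξ * conj (v ξ') * ((∑ j, x j ξ * x j ξ' : ℤ) : ℂ) := by
    simp only [wK, map_sum, map_mul, map_intCast, Finset.sum_mul_sum]
    rw [Finset.sum_comm]
    refine Finset.sum_congr rfl fun ξ _ => ?_
    rw [Finset.sum_comm]
    refine Finset.sum_congr rfl fun ξ' _ => ?_
    push_cast
    rw [Finset.mul_sum]
    refine Finset.sum_congr rfl fun j _ => ?_
    ring
  have h2 : ∑ j, (ε j : ℂ) * wK hH b x χ j = ∑ ξ ∈ bF b, v ξ * ((∑ j, ε j * x j ξ : ℤ) : ℂ) := by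
    simp only [wK, Finset.mul_sum]
    rw [Finset.sum_comm]
    refine Finset.sum_congr rfl fun ξ _ => ?_
    push_cast
    rw [Finset.mul_sum]
    refine Finset.sum_congr rfl fun j _ => ?_
    ring
  have h3 : (∑ j, (ε j : ℂ) * wK hH b x χ j) * conj (∑ j, (ε j : ℂ) * wK hH b x χ j) =
      ∑ ξ ∈ bF b, ∑ ξ' ∈ bF b, v ξ * conj (v ξ') *
        (((∑ j, ε j * x j ξ) * (∑ j, ε j * x j ξ') : ℤ) : ℂ) := by
    rw [h2, map_sum, Finset.sum_mul_sum]
    refine Finset.sum_congr rfl fun ξ _ => Finset.sum_congr rfl fun ξ' _ => ?_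
    rw [map_mul, map_intCast]
    push_cast
    ring
  rw [h1, h3, Finset.mul_sum, Finset.mul_sum, ← Finset.sum_sub_distrib]
  refine Finset.sum_congr rfl fun ξ hξ => ?_
  rw [Finset.mul_sum, Finset.mul_sum, ← Finset.sum_sub_distrib]
  refine Finset.sum_congr rfl fun ξ' hξ' => ?_
  rw [hQ ξ hξ ξ' hξ']
  push_cast
  ring

/-- A vanishing norm implies the vanishing at the identity. -/
theorem th_one_eq_zero_of_RR (hH : H = Subgroup.centralizer ({y} : Set G))
    {b : Set (IrrCharacter H)} (χ : IrrCharacter G) (h : RR p hH b χ χ = 0) :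
    th hH b χ 1 = 0 := by
  classical
  have hp0 : (p : ℂ) ≠ 0 := by exact_mod_cast hpF.out.ne_zero
  have hc : (Nat.card H : ℂ) ≠ 0 := natCard_ne_zero'
  unfold RR at h
  rw [classInner_pReg_eq_sum] at h
  have h1 := (mul_eq_zero.mp h).resolve_left (pow_ne_zero _ hp0)
  have h2 := (mul_eq_zero.mp h1).resolve_left (inv_ne_zero hc)
  have h3 : ∑ s ∈ Finset.univ.filter (fun s : H => ¬ p ∣ orderOf s),
      Complex.normSq (th hH b χ s) = 0 := by
    have : ((∑ s ∈ Finset.univ.filter (fun s : H => ¬ p ∣ orderOf s),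
        Complex.normSq (th hH b χ s) : ℝ) : ℂ) = 0 := by
      push_cast
      rw [← h2]
      refine Finset.sum_congr rfl fun s _ => ?_
      rw [Complex.mul_conj]
    exact_mod_cast this
  have h4 := (Finset.sum_eq_zero_iff_of_nonneg (fun s _ => Complex.normSq_nonneg _)).mp h3 1
    (Finset.mem_filter.mpr ⟨Finset.mem_univ _, by simp [hpF.out.one_lt.ne']⟩)
  exact Complex.normSq_eq_zero.mp h4

/-- **Counting with a simplex form.** -/
theorem card_filter_le (hM : IsPModular p M) (hy : ∃ k : ℕ, orderOf y = p ^ k)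
    (hH : H = Subgroup.centralizer ({y} : Set G)) {b : Set (IrrCharacter H)}
    {B : Set (IrrCharacter G)} (hind : IsInducedBlock M H b B)
    {J : Type*} [Fintype J] (hJ : 0 < Fintype.card J) (ε : J → ℤ) (hε : ∀ j, ε j = 1 ∨ ε j = -1)
    (m : ℕ) (hm' : m ≠ 0 ∨ Fintype.card J ≤ 1) (x : J → IrrCharacter H → ℤ)
    (hQ : ∀ ξ ∈ bF b, ∀ ξ' ∈ bF b, Q p b ξ ξ' =
      ((1 + Fintype.card J * m : ℕ) : ℤ) * ∑ j, x j ξ * x j ξ' -
        (m : ℤ) * ((∑ j, ε j * x j ξ) * (∑ j, ε j * x j ξ')))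
    (hl : blockRank p b ≤ Fintype.card J) :
    ((bF B).filter (fun χ => th hH b χ 1 ≠ 0)).card ≤ p ^ blockDefect p b := by
  classical
  have hb := hind.1
  have hp := hpF.out
  obtain ⟨k, hk⟩ := id hy
  have hn : y ^ (p ^ k) = 1 := by rw [← hk]; exact pow_orderOf_eq_one y
  have hn0 : p ^ k ≠ 0 := pow_ne_zero _ hp.ne_zero
  haveI : NeZero (p ^ k) := ⟨hn0⟩
  have hRR := RR_eq_simplex hM hH hb ε (1 + Fintype.card J * m) m x hQ
  have hmain := Cfsg.Agent.Lib.GalSimplex.card_mul_le_of_simplex (p ^ k)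
    ((bF B).filter (fun χ => th hH b χ 1 ≠ 0)) (bF B) (Finset.filter_subset _ _)
    (wK hH b x)
    (fun χ j => sum_mem fun ξ _ => mul_mem (vv_mem_cycF hH χ ξ hn)
      (Cfsg.Agent.Lib.GalAmgm.intCast_mem_cycF _ _))
    (fun χ j => IsIntegral.sum _ fun ξ _ => IsIntegral.mul (vv_isIntegral hH χ ξ hn0 hn)
      (isIntegral_intCast _))
    (by
      intro χ hχ
      by_contra hcon
      push Not at hcon
      apply (Finset.mem_filter.mp hχ).2
      apply th_one_eq_zero_of_RR (p := p) hH χ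
      rw [hRR]
      simp [hcon])
    ε hε m hm' (((blockRank p b * p ^ blockDefect p b : ℕ) : ℚ)) (by
      rw [Finset.sum_congr rfl (fun χ _ => (hRR χ).symm), sum_RR_self hM hy hH hind]
      push_cast
      rfl)
  have h1 : (((bF B).filter (fun χ => th hH b χ 1 ≠ 0)).card * Fintype.card J : ℕ) ≤
      blockRank p b * p ^ blockDefect p b := by
    have : ((((bF B).filter (fun χ => th hH b χ 1 ≠ 0)).card * Fintype.card J : ℕ) : ℝ) ≤
        ((blockRank p b * p ^ blockDefect p b : ℕ) : ℝ) := by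
      push_cast at hmain ⊢
      exact hmain
    exact_mod_cast this
  have h2 : ((bF B).filter (fun χ => th hH b χ 1 ≠ 0)).card * Fintype.card J ≤
      p ^ blockDefect p b * Fintype.card J := by
    refine h1.trans ?_
    rw [mul_comm]
    exact Nat.mul_le_mul_left _ hl
  exact Nat.le_of_mul_le_mul_right h2 hJ

/-- The value at the `p`-element, through the block of the centralizer. -/
theorem th_one_of_principal (hM : IsPModular p M) (hy : ∃ k : ℕ, orderOf y = p ^ k)
    (hH : H = Subgroup.centralizer ({y} : Set G)) {χ : IrrCharacter G}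
    (hχ : χ ∈ principalBlock M G) :
    th hH (principalBlock M H) χ 1 = (χ : G → ℂ) y := by
  classical
  haveI hMp := hM.2.1.isPrime
  have hzg : IsPGroup p (Subgroup.zpowers y) := by
    obtain ⟨k, hk⟩ := hy
    apply IsPGroup.of_card (n := k)
    rw [Nat.card_zpowers, hk]
  have hH' : H = Subgroup.centralizer ((Subgroup.zpowers y : Subgroup G) : Set G) := by
    rw [Cfsg.Agent.Lib.BlockSecond.centralizer_zpowers_eq, hH]
  have hcl : IsClassFunction H (thetaZ (χ : G → ℂ) y H) :=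
    thetaZ_isClassFunction hH (isClassFunction_of_isCharacter (IsIrrCharacter.isCharacter χ.2))
  have h1 := sum_blocks_mul (M := M) (thetaZ (χ : G → ℂ) y H) 1
  have h2 : thetaZ (χ : G → ℂ) y H 1 = (χ : G → ℂ) y := by
    simp [thetaZ]
  rw [h2] at h1
  rw [← h1]
  have h3 : ∀ F : Cfsg.Agent.Lib.BrauerPair.BlockT M H, F.1 ≠ principalBlock M H →
      ∑ k : H, blockCoeff F.1 k * thetaZ (χ : G → ℂ) y H (k * 1) = 0 := by
    intro F hF
    obtain ⟨B', hB'⟩ := Cfsg.Agent.Lib.BlockSecond.exists_isInducedBlock_centralizer hM hzg hH' F.2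
    have hχB' : χ ∉ B' := by
      intro hcon
      have h4 : B' = principalBlock M G := by
        rcases eq_or_disjoint_of_isPBlock hB'.2.1
          (Cfsg.Agent.Lib.BlockNormal.isPBlock_principalBlock M) with h5 | h5
        · exact h5
        · exact absurd hχ (Set.disjoint_left.mp h5 hcon)
      subst h4
      exact hF (Cfsg.Agent.Lib.BlockSection.eq_principal_of_isInducedBlock hM hy hH hB')
    exact sum_thetaZ_eq_zero hM hy hH hB' hχB' 1 (by simp [hpF.out.one_lt.ne'])
  have hmem : (⟨principalBlock M H, Cfsg.Agent.Lib.BlockNormal.isPBlock_principalBlock M⟩ :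
      Cfsg.Agent.Lib.BrauerPair.BlockT M H) ∈ Finset.univ := Finset.mem_univ _
  rw [Finset.sum_eq_single_of_mem _ hmem]
  · unfold th
    rw [← Cfsg.Agent.Lib.BlockSecond.sum_blockCoeff_mul_eq_blockPart _ hcl 1]
  · intro F _ hF
    apply h3 F
    intro h
    apply hF
    exact Subtype.ext h

/-- A `p`-element does not change the value modulo `M`. -/
theorem memLocalIdeal_char_sub (hM : IsPModular p M) (hy : ∃ k : ℕ, orderOf y = p ^ k)
    (hH : H = Subgroup.centralizer ({y} : Set G)) (χ : IrrCharacter G) :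
    MemLocalIdeal M ((χ : G → ℂ) y - (χ : G → ℂ) 1) := by
  classical
  haveI hMp := hM.2.1.isPrime
  obtain ⟨k, hk⟩ := hy
  have hn : y ^ (p ^ k) = 1 := by rw [← hk]; exact pow_orderOf_eq_one y
  have hcl := isClassFunction_of_isCharacter (isCharacter_restrict H (IsIrrCharacter.isCharacter χ.2))
  have h1 := classFunction_eq_sum hcl
  have h2 : ∀ c : H, (χ : G → ℂ) c = ∑ ξ : IrrCharacter H, (mult H χ ξ : ℂ) * (ξ : H → ℂ) c := by
    intro c
    have h3 := congrFun h1 c
    rw [Finset.sum_apply] at h3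
    rw [h3]
    refine Finset.sum_congr rfl fun ξ _ => ?_
    simp only [Pi.smul_apply, smul_eq_mul]
    rw [mult_spec]
  have h3 := h2 (yH hH)
  have h4 := h2 1
  have h5 : ((yH hH : H) : G) = y := rfl
  rw [h5] at h3
  rw [Subgroup.coe_one] at h4
  rw [h3, h4, ← Finset.sum_sub_distrib]
  refine memLocalIdeal_sum _ _ fun ξ _ => ?_
  rw [← mul_sub]
  refine memLocalIdeal_mul_left (memLocalRing_natCast _) ?_
  have h6 : (ξ : H → ℂ) (yH hH) - (ξ : H → ℂ) 1 = (ξ : H → ℂ) 1 * (om hH ξ - 1) := by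
    unfold om
    have := irr_one_ne_zero' ξ.2
    field_simp
  rw [h6]
  refine memLocalIdeal_mul_left ?_
    (Cfsg.Agent.Lib.BlockOsima.memLocalIdeal_sub_one_of_pow hM (om_pow_eq_one hH ξ hn))
  rw [Cfsg.Agent.Lib.CharKernel.one_eq_charDegree (IsIrrCharacter.isCharacter ξ.2)]
  exact memLocalRing_natCast _

/-- Characters of degree prime to `p` in the principal block contribute at `y`. -/
theorem th_one_ne_zero (hM : IsPModular p M) (hy : ∃ k : ℕ, orderOf y = p ^ k)
    (hH : H = Subgroup.centralizer ({y} : Set G)) {χ : IrrCharacter G}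
    (hχ : χ ∈ principalBlock M G) (hd : ¬ p ∣ charDegree (χ : G → ℂ)) :
    th hH (principalBlock M H) χ 1 ≠ 0 := by
  have hMp := hM.2.1.isPrime
  rw [th_one_of_principal hM hy hH hχ]
  intro h0
  have h1 := memLocalIdeal_char_sub hM hy hH χ
  rw [h0, zero_sub] at h1
  have h2 : MemLocalIdeal M ((χ : G → ℂ) 1) := by
    have := memLocalIdeal_mul_left (memLocalRing_intCast (-1)) h1
    simpa using this
  rw [Cfsg.Agent.Lib.CharKernel.one_eq_charDegree (IsIrrCharacter.isCharacter χ.2),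
    memLocalIdeal_natCast_iff hM] at h2
  exact hd h2

end Cfsg.Agent.Lib.K0Form
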