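import Mathlib
import Cfsg.Agent.Lib.PCore
import Cfsg.Agent.Lib.Hall
import Cfsg.Agent.Lib.HallExist
import Cfsg.Agent.Lib.FunctorComplete

/-!
# Basic tools for S3814: norm arguments for Frobenius-type actions, rank two elementary
abelian subgroups, uniqueness in rank one, Hall subgroups.
-/

set_option autoImplicit false
set_option linter.unusedSectionVars false
set_option linter.style.haveILetI false
set_option linter.unusedVariables false

namespace Cfsg.Agent.Lib.KFour

open Cfsg Cfsg.Agent.Lib.PCore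
open scoped Pointwise

section Star

variable {Γ W : Type*} [Group Γ] [CommGroup W] (φ : Γ →* MulAut W)

/-- The norm identity: if `z` acts without fixed points on `W` and every nontrivial power of `z` acts
without fixed points on `K`, then `v ^ |K|` is `K`-fixed, for every `v`. -/
theorem star (K : Subgroup Γ) [Finite K] (z : Γ) (hzK : ∀ k ∈ K, z * k * z⁻¹ ∈ K) (hz0 : IsOfFinOrder z)
    (hfp : ∀ i : ℕ, z ^ i ≠ 1 → ∀ k ∈ K, z ^ i * k = k * z ^ i → k = 1)
    (hfpW : ∀ w : W, φ z w = w → w = 1) (v : W) (k₀ : Γ) (hk₀ : k₀ ∈ K) :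
    φ k₀ (v ^ Nat.card K) = v ^ Nat.card K := by
  classical
  letI := Fintype.ofFinite K
  set n := orderOf z with hn
  have hn0 : 0 < n := hz0.orderOf_pos
  have hzn : z ^ n = 1 := pow_orderOf_eq_one z
  let N : W → W := fun u => ∏ k : K, φ (k : Γ) u
  have hN : ∀ u, φ k₀ (N u) = N u := by
    intro u
    simp only [N, map_prod]
    refine Fintype.prod_equiv (Equiv.mulLeft (⟨k₀, hk₀⟩ : K)) _ _ ?_
    intro k
    simp [Equiv.coe_mulLeft, map_mul, MulAut.mul_apply]
  let M : W → W := fun u => ∏ i ∈ Finset.range n, φ (z ^ i) u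
  have hM : ∀ u, M u = 1 := by
    intro u
    apply hfpW
    simp only [M, map_prod]
    have h1 : ∀ i, φ z (φ (z ^ i) u) = φ (z ^ (i + 1)) u := by
      intro i
      rw [pow_succ', map_mul, MulAut.mul_apply]
    simp only [h1]
    have h2 := Finset.prod_range_succ (fun i => φ (z ^ i) u) n
    have h3 := Finset.prod_range_succ' (fun i => φ (z ^ i) u) n
    rw [h2] at h3
    simp only [hzn, pow_zero, map_one, MulAut.one_apply] at h3
    exact (mul_right_cancel h3).symm
  have hzpow : ∀ j : ℕ, ∀ k ∈ K, z ^ j * k * (z ^ j)⁻¹ ∈ K := by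
    intro j
    induction j with
    | zero => intro k hk; simpa using hk
    | succ j ih =>
      intro k hk
      have h := hzK _ (ih k hk)
      have e : z * (z ^ j * k * (z ^ j)⁻¹) * z⁻¹ = z ^ (j + 1) * k * (z ^ (j + 1))⁻¹ := by
        rw [pow_succ' z j]; group
      rwa [e] at h
  have hc : ∀ c : K, ∏ i ∈ Finset.range n, φ ((c : Γ) * z ^ i * (c : Γ)⁻¹) v = 1 := by
    intro c
    have h1 : ∀ i, φ ((c : Γ) * z ^ i * (c : Γ)⁻¹) v = φ (c : Γ) (φ (z ^ i) (φ ((c : Γ)⁻¹) v)) := by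
      intro i
      simp [map_mul, MulAut.mul_apply]
    simp only [h1]
    rw [← map_prod]
    have := hM (φ ((c : Γ)⁻¹) v)
    simp only [M] at this
    rw [this, map_one]
  have htot : ∏ c : K, ∏ i ∈ Finset.range n, φ ((c : Γ) * z ^ i * (c : Γ)⁻¹) v = 1 := by
    exact Finset.prod_eq_one (fun c _ => hc c)
  rw [Finset.prod_comm] at htot
  obtain ⟨m, hm⟩ : ∃ m, n = m + 1 := ⟨n - 1, by omega⟩
  rw [hm, Finset.prod_range_succ'] at htot
  have h0 : ∏ c : K, φ ((c : Γ) * z ^ 0 * (c : Γ)⁻¹) v = v ^ Nat.card K := by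
    simp [Nat.card_eq_fintype_card, Finset.card_univ]
  rw [h0] at htot
  have hbij : ∀ i ∈ Finset.range m, ∏ c : K, φ ((c : Γ) * z ^ (i + 1) * (c : Γ)⁻¹) v =
      N (φ (z ^ (i + 1)) v) := by
    intro i hi
    have hi' : i + 1 < n := by
      have := Finset.mem_range.1 hi
      omega
    have hne : z ^ (i + 1) ≠ 1 := pow_ne_one_of_lt_orderOf (by omega) hi'
    let f : K → K := fun c => ⟨(c : Γ) * (z ^ (i + 1) * (c : Γ)⁻¹ * (z ^ (i + 1))⁻¹),
      K.mul_mem c.2 (hzpow _ _ (K.inv_mem c.2))⟩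
    have hf : Function.Injective f := by
      intro c d hcd
      have h1 : (c : Γ) * (z ^ (i + 1) * (c : Γ)⁻¹ * (z ^ (i + 1))⁻¹) =
          (d : Γ) * (z ^ (i + 1) * (d : Γ)⁻¹ * (z ^ (i + 1))⁻¹) := congrArg Subtype.val hcd
      have h2 : (c : Γ) * z ^ (i + 1) * (c : Γ)⁻¹ = (d : Γ) * z ^ (i + 1) * (d : Γ)⁻¹ := by
        have := congrArg (fun x => x * z ^ (i + 1)) h1
        simpa [mul_assoc] using this
      have h3 : z ^ (i + 1) * ((d : Γ)⁻¹ * (c : Γ)) = ((d : Γ)⁻¹ * (c : Γ)) * z ^ (i + 1) := by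
        have := congrArg (fun x => (d : Γ)⁻¹ * x * (c : Γ)) h2
        simpa [mul_assoc] using this.symm
      have h4 := hfp _ hne _ (K.mul_mem (K.inv_mem d.2) c.2) h3
      apply Subtype.ext
      exact (inv_mul_eq_one.mp h4).symm
    have hfb : Function.Bijective f := ⟨hf, Finite.surjective_of_injective hf⟩
    have h1 : ∀ c : K, φ ((c : Γ) * z ^ (i + 1) * (c : Γ)⁻¹) v = φ ((f c : K) : Γ) (φ (z ^ (i + 1)) v) := by
      intro c
      rw [← MulAut.mul_apply, ← map_mul]
      congr 2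
      simp only [f]
      group
    simp only [h1]
    exact hfb.prod_comp (fun k : K => φ (k : Γ) (φ (z ^ (i + 1)) v))
  rw [Finset.prod_congr rfl hbij] at htot
  have hv : v ^ Nat.card K = (∏ i ∈ Finset.range m, N (φ (z ^ (i + 1)) v))⁻¹ := by
    exact eq_inv_of_mul_eq_one_right htot
  rw [hv, map_inv, map_prod]
  simp only [hN]

end Star

variable {G : Type*} [Group G]

/-- `y` has no fixed points on `W`. -/
def Fpf (y : G) (W : Subgroup G) : Prop := ∀ w ∈ W, y * w = w * y → w = 1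

/-- `y` normalizes `W` (elementwise form). -/
def Nrm (y : G) (W : Subgroup G) : Prop := ∀ w ∈ W, y * w * y⁻¹ ∈ W

theorem Nrm.pow {y : G} {W : Subgroup G} (h : Nrm y W) (k : ℕ) : Nrm (y ^ k) W := by
  induction k with
  | zero => intro w hw; simpa using hw
  | succ k ih =>
    intro w hw
    have h1 := h _ (ih w hw)
    have e : y * (y ^ k * w * (y ^ k)⁻¹) * y⁻¹ = y ^ (k + 1) * w * (y ^ (k + 1))⁻¹ := by
      rw [pow_succ' y k]; group
    rwa [e] at h1

theorem Nrm.inv [Finite G] {y : G} {W : Subgroup G} (h : Nrm y W) : Nrm y⁻¹ W := by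
  have h1 : y⁻¹ = y ^ (orderOf y - 1) := by
    have hpos : 0 < orderOf y := orderOf_pos y
    rw [inv_eq_of_mul_eq_one_right]
    rw [← pow_succ', Nat.sub_add_cancel hpos, pow_orderOf_eq_one]
  rw [h1]
  exact h.pow _

theorem Nrm.mem_normalizer [Finite G] {y : G} {W : Subgroup G} (h : Nrm y W) :
    y ∈ Subgroup.normalizer (W : Set G) := by
  rw [Subgroup.mem_normalizer_iff]
  intro x
  refine ⟨h x, fun hx => ?_⟩
  have := h.inv _ hx
  simpa [mul_assoc] using this

theorem nrm_of_mem_normalizer {y : G} {W : Subgroup G} (h : y ∈ Subgroup.normalizer (W : Set G)) : Nrm y W :=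
  fun w hw => (Subgroup.mem_normalizer_iff.mp h w).mp hw

theorem Nrm.mul {x y : G} {W : Subgroup G} (hx : Nrm x W) (hy : Nrm y W) : Nrm (x * y) W := by
  intro w hw
  have h := hx _ (hy w hw)
  have e : x * (y * w * y⁻¹) * x⁻¹ = x * y * w * (x * y)⁻¹ := by group
  rwa [e] at h

theorem nrm_of_mem {x : G} {W : Subgroup G} (hx : x ∈ W) : Nrm x W :=
  fun w hw => W.mul_mem (W.mul_mem hx hw) (W.inv_mem hx)

/-- The norm identity inside an ambient group. -/
theorem star_sub [Finite G] (K W : Subgroup G) (z : G) (hWab : ∀ a ∈ W, ∀ b ∈ W, a * b = b * a)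
    (hKW : ∀ k ∈ K, Nrm k W) (hzW : Nrm z W) (hzK : Nrm z K)
    (hfp : ∀ i : ℕ, z ^ i ≠ 1 → ∀ k ∈ K, z ^ i * k = k * z ^ i → k = 1) (hfpW : Fpf z W)
    {v : G} (hv : v ∈ W) {k₀ : G} (hk₀ : k₀ ∈ K) :
    k₀ * v ^ Nat.card K * k₀⁻¹ = v ^ Nat.card K := by
  classical
  letI : CommGroup W := { (inferInstance : Group W) with
    mul_comm := fun a b => Subtype.ext (hWab a a.2 b b.2) }
  let L : Subgroup G := Subgroup.normalizer (W : Set G)
  have hKL : K ≤ L := fun k hk => (hKW k hk).mem_normalizer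
  have hzL : z ∈ L := hzW.mem_normalizer
  let φ : L →* MulAut W := W.normalizerMonoidHom
  have hφ : ∀ (g : L) (w : W), ((φ g w : W) : G) = (g : G) * w * (g : G)⁻¹ := fun g w => rfl
  let K' : Subgroup L := K.subgroupOf L
  haveI : Finite K' := inferInstance
  have hcard : Nat.card K' = Nat.card K :=
    Nat.card_congr (Subgroup.subgroupOfEquivOfLe hKL).toEquiv
  have h := star φ K' ⟨z, hzL⟩ ?_ (isOfFinOrder_of_finite _) ?_ ?_ ⟨v, hv⟩ ⟨k₀, hKL hk₀⟩ ?_
  · rw [hcard] at h
    have h1 := congrArg (Subtype.val) h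
    rw [hφ] at h1
    simpa using h1
  · intro k hk
    rw [Subgroup.mem_subgroupOf] at hk ⊢
    exact hzK _ hk
  · intro i hi k hk hc
    rw [Subgroup.mem_subgroupOf] at hk
    have hi' : z ^ i ≠ 1 := by
      intro h0
      apply hi
      apply Subtype.ext
      simpa using h0
    have hc' : z ^ i * (k : G) = (k : G) * z ^ i := by
      have := congrArg Subtype.val hc
      simpa using this
    exact Subtype.ext (hfp i hi' _ hk hc')
  · intro w hw
    have h1 := congrArg Subtype.val hw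
    rw [hφ] at h1
    apply Subtype.ext
    refine hfpW _ w.2 ?_
    have h2 : z * (w : G) * z⁻¹ = w := h1
    exact mul_inv_eq_iff_eq_mul.mp h2
  · exact Subgroup.mem_subgroupOf.2 hk₀

/-- If `gcd(m, |W|) = 1` and `k` fixes `v ^ m` then `k` fixes `v`. -/
theorem fix_of_pow_fix [Finite G] {W : Subgroup G} {m : ℕ} (hm : (Nat.card W).Coprime m) {v k : G}
    (hv : v ∈ W) (hk : k * v ^ m * k⁻¹ = v ^ m) : k * v * k⁻¹ = v := by
  have h1 : orderOf v ∣ Nat.card W := by
    have := Subgroup.orderOf_dvd_natCard W hv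
    exact this
  have hc : (orderOf v).Coprime m := Nat.Coprime.coprime_dvd_left h1 hm
  obtain ⟨a, ha⟩ := exists_pow_eq_self_of_coprime hc.symm
  have h2 : v ^ m ∈ Subgroup.centralizer ({k} : Set G) := by
    rw [Subgroup.mem_centralizer_singleton_iff]
    have := congrArg (fun x => x * k) hk
    simp only [inv_mul_cancel_right] at this
    exact this.symm
  have h3 : (v ^ m) ^ a ∈ Subgroup.centralizer ({k} : Set G) := Subgroup.pow_mem _ h2 a
  rw [ha, Subgroup.mem_centralizer_singleton_iff] at h3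
  rw [← h3]
  simp

/-- Elementary abelian subgroup of rank at least two. -/
def IsE2 (q : ℕ) (E : Subgroup G) : Prop :=
  (∀ a ∈ E, ∀ b ∈ E, a * b = b * a) ∧ (∀ a ∈ E, a ^ q = 1) ∧ q ^ 2 ≤ Nat.card E

theorem IsE2.order {q : ℕ} [hq : Fact q.Prime] {E : Subgroup G} (hE : IsE2 q E) {e : G} (he : e ∈ E)
    (h1 : e ≠ 1) : orderOf e = q := orderOf_eq_prime (hE.2.1 e he) h1

theorem IsE2.isPGroup {q : ℕ} [hq : Fact q.Prime] {E : Subgroup G} (hE : IsE2 q E) : IsPGroup q E := by
  intro x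
  refine ⟨1, ?_⟩
  apply Subtype.ext
  simpa using hE.2.1 x x.2

theorem IsE2.not_dvd [Finite G] {q r : ℕ} [hq : Fact q.Prime] {E : Subgroup G} (hE : IsE2 q E)
    (hr : r.Prime) (hrq : r ≠ q) : ¬ r ∣ Nat.card E := by
  intro hd
  obtain ⟨k, hk⟩ := IsPGroup.iff_card.mp hE.isPGroup
  rw [hk] at hd
  exact hrq ((Nat.prime_dvd_prime_iff_eq hr hq.out).mp (hr.dvd_of_dvd_pow hd))

/-- A noncyclic elementary abelian group acting coprimely on a nontrivial group has a nontrivial fixed
point for some nontrivial element. -/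
theorem IsE2.exists_fix [Finite G] {q : ℕ} [hq : Fact q.Prime] {E W : Subgroup G} (hE : IsE2 q E)
    (hW : W ≠ ⊥) (hWq : ¬ q ∣ Nat.card W) (hN : ∀ e ∈ E, Nrm e W) :
    ∃ e ∈ E, e ≠ 1 ∧ ∃ w ∈ W, w ≠ 1 ∧ e * w = w * e := by
  by_contra hcon
  push Not at hcon
  apply hW
  refine Cfsg.Agent.Lib.FunctorComplete.eq_bot_of_no_fixed (p := q) (B := E) (ι := E.subtype)
    (fun a b => Subtype.ext (hE.1 a a.2 b b.2)) (fun b => Subtype.ext (hE.2.1 b b.2)) hE.2.2 W hWq ?_ ?_
  · intro b k hk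
    exact hN b b.2 k hk
  · intro h hh
    rw [eq_bot_iff]
    rintro w ⟨hw1, hw2⟩
    rw [Subgroup.mem_bot]
    by_contra hw
    have hw2' : w * (h : G) = (h : G) * w := Subgroup.mem_centralizer_singleton_iff.mp hw2
    refine hcon h h.2 ?_ w hw1 hw hw2'.symm
    intro h1
    exact hh (Subtype.ext h1)

/-- Generation by fixed points: if all fixed point subgroups lie in `C` then `W` does. -/
theorem IsE2.le_of_fix [Finite G] {q : ℕ} [hq : Fact q.Prime] {E W C : Subgroup G} (hE : IsE2 q E)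
    (hWq : ¬ q ∣ Nat.card W) (hN : ∀ e ∈ E, Nrm e W)
    (hC : ∀ e ∈ E, e ≠ 1 → ∀ w ∈ W, e * w = w * e → w ∈ C) : W ≤ C := by
  have h := Cfsg.Agent.Lib.FunctorComplete.gen_rank2 (p := q) (B := E) (H := G) (ι := E.subtype)
    (fun a b => Subtype.ext (hE.1 a a.2 b b.2)) (fun b => Subtype.ext (hE.2.1 b b.2)) ⊤
    (by rw [Subgroup.card_top]; exact hE.2.2) W hWq (fun b k hk => hN b b.2 k hk)
  refine h.trans (iSup_le ?_)
  rintro ⟨h, -, hh⟩
  rintro w ⟨hw1, hw2⟩
  have hw2' : w * (h : G) = (h : G) * w := Subgroup.mem_centralizer_singleton_iff.mp hw2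
  refine hC h h.2 ?_ w hw1 hw2'.symm
  intro h1
  exact hh (Subtype.ext h1)

/-- A commuting non-proportional pair of elements of order `q` generates a rank two group. -/
theorem isE2_of_pair [Finite G] {q : ℕ} [hq : Fact q.Prime] {x y : G} (hx : orderOf x = q) (hy : orderOf y = q)
    (hc : x * y = y * x) (hne : y ∉ Subgroup.zpowers x) : IsE2 q (Subgroup.zpowers x ⊔ Subgroup.zpowers y) := by
  set E := Subgroup.zpowers x ⊔ Subgroup.zpowers y with hE
  have hxE : x ∈ E := (le_sup_left : Subgroup.zpowers x ≤ E) (Subgroup.mem_zpowers x)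
  have hyE : y ∈ E := (le_sup_right : Subgroup.zpowers y ≤ E) (Subgroup.mem_zpowers y)
  have hcomm : ∀ a ∈ E, ∀ b ∈ E, a * b = b * a := by
    have h1 : ∀ a ∈ E, a * x = x * a ∧ a * y = y * a := by
      have hle : E ≤ Subgroup.centralizer ({x} : Set G) ⊓ Subgroup.centralizer ({y} : Set G) := by
        refine sup_le ?_ ?_
        · rw [Subgroup.zpowers_le]
          exact ⟨Subgroup.mem_centralizer_singleton_iff.2 rfl, Subgroup.mem_centralizer_singleton_iff.2 hc⟩
        · rw [Subgroup.zpowers_le]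
          exact ⟨Subgroup.mem_centralizer_singleton_iff.2 hc.symm, Subgroup.mem_centralizer_singleton_iff.2 rfl⟩
      intro a ha
      have := hle ha
      exact ⟨Subgroup.mem_centralizer_singleton_iff.1 this.1, Subgroup.mem_centralizer_singleton_iff.1 this.2⟩
    intro a ha b hb
    have hle : E ≤ Subgroup.centralizer ({a} : Set G) := by
      refine sup_le ?_ ?_
      · rw [Subgroup.zpowers_le]
        exact Subgroup.mem_centralizer_singleton_iff.2 (h1 a ha).1.symm
      · rw [Subgroup.zpowers_le]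
        exact Subgroup.mem_centralizer_singleton_iff.2 (h1 a ha).2.symm
    exact (Subgroup.mem_centralizer_singleton_iff.1 (hle hb)).symm
  let T : Subgroup G :=
    { carrier := {g | g ∈ E ∧ g ^ q = 1}
      mul_mem' := by
        rintro a b ⟨ha, ha'⟩ ⟨hb, hb'⟩
        refine ⟨E.mul_mem ha hb, ?_⟩
        rw [(show Commute a b from hcomm a ha b hb).mul_pow, ha', hb', one_mul]
      one_mem' := ⟨E.one_mem, one_pow _⟩
      inv_mem' := by
        rintro a ⟨ha, ha'⟩
        exact ⟨E.inv_mem ha, by rw [inv_pow, ha', inv_one]⟩ }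
  have hET : E ≤ T := by
    refine sup_le ?_ ?_
    · rw [Subgroup.zpowers_le]
      exact ⟨hxE, by rw [← hx]; exact pow_orderOf_eq_one x⟩
    · rw [Subgroup.zpowers_le]
      exact ⟨hyE, by rw [← hy]; exact pow_orderOf_eq_one y⟩
  have hexp : ∀ a ∈ E, a ^ q = 1 := fun a ha => (hET ha).2
  refine ⟨hcomm, hexp, ?_⟩
  have hp : IsPGroup q E := by
    intro a
    refine ⟨1, ?_⟩
    apply Subtype.ext
    simpa using hexp a a.2
  obtain ⟨k, hk⟩ := IsPGroup.iff_card.mp hp
  have hlt : Subgroup.zpowers x < E := by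
    refine lt_of_le_of_ne le_sup_left ?_
    intro h
    apply hne
    rw [h]
    exact hyE
  have hcard : Nat.card (Subgroup.zpowers x) < Nat.card E := by
    exact lt_of_le_of_ne (Subgroup.card_le_of_le hlt.le)
      (fun h => hlt.ne (Subgroup.eq_of_le_of_card_ge hlt.le h.ge))
  rw [Nat.card_zpowers, hx, hk] at hcard
  rw [hk]
  refine Nat.pow_le_pow_right hq.out.pos ?_
  by_contra hk2
  have hk1 : k ≤ 1 := by omega
  have := Nat.pow_le_pow_right hq.out.pos hk1
  rw [pow_one] at this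
  omega

/-- Existence of an element of prime order. -/
theorem exists_order [Finite G] {q : ℕ} (hq : q.Prime) {K : Subgroup G} (hd : q ∣ Nat.card K) :
    ∃ x ∈ K, orderOf x = q := by
  haveI : Fact q.Prime := ⟨hq⟩
  obtain ⟨x, hx⟩ := exists_prime_orderOf_dvd_card' q hd
  exact ⟨x, x.2, by rwa [Subgroup.orderOf_coe]⟩

/-- No commuting non-proportional pair of order `q` inside `P`. -/
def NoE2 (q : ℕ) (P : Subgroup G) : Prop :=
  ∀ x ∈ P, ∀ y ∈ P, orderOf x = q → orderOf y = q → x * y = y * x → y ∈ Subgroup.zpowers x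

theorem exists_central_order [Finite G] {p : ℕ} [hp : Fact p.Prime] {P : Subgroup G} (hP : IsPGroup p P)
    (hne : P ≠ ⊥) : ∃ x ∈ P, orderOf x = p ∧ ∀ g ∈ P, x * g = g * x := by
  haveI : Nontrivial P := (Subgroup.nontrivial_iff_ne_bot P).2 hne
  have hc : Nontrivial (Subgroup.center P) := hP.center_nontrivial
  have hd : p ∣ Nat.card (Subgroup.center P) := by
    obtain ⟨k, hk⟩ := IsPGroup.iff_card.mp (hP.to_subgroup (Subgroup.center P))
    rw [hk]
    refine dvd_pow_self p ?_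
    rintro rfl
    have h1 := Finite.one_lt_card (α := Subgroup.center P)
    rw [hk, pow_zero] at h1
    exact lt_irrefl _ h1
  obtain ⟨x, hx⟩ := exists_prime_orderOf_dvd_card' p hd
  refine ⟨(x : P), (x : P).2, ?_, ?_⟩
  · rw [Subgroup.orderOf_coe, Subgroup.orderOf_coe]
    exact hx
  · intro g hg
    have := (Subgroup.mem_center_iff.1 x.2) ⟨g, hg⟩
    exact (congrArg Subtype.val this).symm

/-- Uniqueness of the subgroup of order `p` in rank one. -/
theorem exists_unique_of_noE2 [Finite G] {p : ℕ} [hp : Fact p.Prime] {P : Subgroup G} (hP : IsPGroup p P)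
    (hne : P ≠ ⊥) (hno : NoE2 p P) : ∃ x ∈ P, orderOf x = p ∧ ∀ y ∈ P, orderOf y = p → y ∈ Subgroup.zpowers x := by
  obtain ⟨x, hxP, hx, hcen⟩ := exists_central_order hP hne
  exact ⟨x, hxP, hx, fun y hy hyo => hno x hxP y hy hx hyo (hcen y hy)⟩

/-- Generator of a cyclic group of prime order. -/
theorem mem_zpowers_of_mem_zpowers {p : ℕ} [hp : Fact p.Prime] {x y : G} (hx : orderOf x = p) (hy : y ∈ Subgroup.zpowers x)
    (h1 : y ≠ 1) : x ∈ Subgroup.zpowers y := by
  have hle : Subgroup.zpowers y ≤ Subgroup.zpowers x := by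
    rwa [Subgroup.zpowers_le]
  have hfin : Finite (Subgroup.zpowers x) :=
    (finite_zpowers.2 (isOfFinOrder_iff_pow_eq_one.2 ⟨p, hp.out.pos, by rw [← hx]; exact pow_orderOf_eq_one x⟩)).to_subtype
  have hcard : Nat.card (Subgroup.zpowers x) = p := by rw [Nat.card_zpowers, hx]
  have hd : Nat.card (Subgroup.zpowers y) ∣ p := by
    rw [← hcard]
    exact Subgroup.card_dvd_of_le hle
  have hy1 : Nat.card (Subgroup.zpowers y) ≠ 1 := by
    rw [Nat.card_zpowers]
    intro h
    exact h1 (orderOf_eq_one_iff.mp h)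
  have hyp : Nat.card (Subgroup.zpowers y) = p := ((Nat.dvd_prime hp.out).mp hd).resolve_left hy1
  have : Subgroup.zpowers y = Subgroup.zpowers x :=
    Subgroup.eq_of_le_of_card_ge hle (by rw [hcard, hyp])
  rw [this]
  exact Subgroup.mem_zpowers x

/-- Cyclic automorphisms of prime order groups. -/
theorem aut_prime {a b : ℕ} (ha : a.Prime) (hb : b.Prime) {x d : G} (hd : orderOf d = b) (hx : x ^ a = 1)
    (hn : x * d * x⁻¹ ∈ Subgroup.zpowers d) : x * d = d * x ∨ a ∣ b - 1 := by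
  haveI : Fact b.Prime := ⟨hb⟩
  obtain ⟨k, hk⟩ := Subgroup.mem_zpowers_iff.mp hn
  have hpow : ∀ m : ℕ, x ^ m * d * (x ^ m)⁻¹ = d ^ ((k : ZMod b).val ^ m) := by
    have hk' : x * d * x⁻¹ = d ^ ((k : ZMod b).val) := by
      rw [← hk, ← zpow_natCast, eq_comm]
      rw [zpow_eq_zpow_iff_modEq, hd]
      have : (((k : ZMod b).val : ℕ) : ℤ) ≡ k [ZMOD (b : ℤ)] := by
        rw [← ZMod.intCast_eq_intCast_iff]
        simp
      exact this
    intro m
    induction m with
    | zero => simp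
    | succ m ih =>
      have h1 : x ^ (m + 1) * d * (x ^ (m + 1))⁻¹ = x * (x ^ m * d * (x ^ m)⁻¹) * x⁻¹ := by
        rw [pow_succ' x m]; group
      rw [h1, ih]
      have h2 : x * d ^ ((k : ZMod b).val ^ m) * x⁻¹ = (x * d * x⁻¹) ^ ((k : ZMod b).val ^ m) := by
        rw [conj_pow]
      rw [h2, hk', ← pow_mul, pow_succ, mul_comm ((k : ZMod b).val ^ m)]
  have h1 := hpow a
  rw [hx, one_mul, inv_one, mul_one] at h1
  have h2 : ((k : ZMod b).val ^ a : ℕ) ≡ 1 [MOD b] := by
    have := (pow_eq_pow_iff_modEq (x := d) (n := (k : ZMod b).val ^ a) (m := 1)).1 (by rw [← h1, pow_one])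
    rwa [hd] at this
  have hk0 : (k : ZMod b) ^ a = 1 := by
    have := (ZMod.natCast_eq_natCast_iff _ _ _).2 h2
    simpa using this
  by_cases hk1 : (k : ZMod b) = 1
  · left
    have h3 := hpow 1
    rw [pow_one, pow_one, hk1] at h3
    have hv : (1 : ZMod b).val = 1 := by
      haveI : Fact (1 < b) := ⟨hb.one_lt⟩
      exact ZMod.val_one b
    rw [hv, pow_one] at h3
    exact mul_inv_eq_iff_eq_mul.mp h3
  · right
    have hu : IsUnit (k : ZMod b) := by
      refine IsUnit.of_pow_eq_one hk0 ha.ne_zero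
    obtain ⟨u, hu⟩ := hu
    have hu1 : u ^ a = 1 := by
      apply Units.ext
      rw [Units.val_pow_eq_pow_val, hu, hk0, Units.val_one]
    have hune : u ≠ 1 := by
      intro h
      apply hk1
      rw [← hu, h, Units.val_one]
    haveI : Fact a.Prime := ⟨ha⟩
    have ho : orderOf u = a := orderOf_eq_prime hu1 hune
    have hc : orderOf u ∣ Nat.card (ZMod b)ˣ := orderOf_dvd_natCard u
    rw [ho, Nat.card_eq_fintype_card, ZMod.card_units b] at hc
    exact hc

/-- Hall `π`-subgroups of a subgroup. -/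
structure IsHallIn (π : ℕ → Prop) (J L : Subgroup G) : Prop where
  le : J ≤ L
  primes : ∀ q : ℕ, q.Prime → q ∣ Nat.card J → π q
  index : ∀ q : ℕ, q.Prime → q ∣ J.relIndex L → ¬ π q

theorem exists_isHallIn [Finite G] (π : ℕ → Prop) (L : Subgroup G) (hL : Group.IsSolvable L) :
    ∃ J, IsHallIn π J L := by
  haveI := hL
  obtain ⟨H, h1, h2⟩ := Cfsg.Agent.Lib.HallExist.exists_hall π L
  have hle : H.map L.subtype ≤ L := Subgroup.map_subtype_le H
  have hsub : (H.map L.subtype).subgroupOf L = H :=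
    Subgroup.comap_map_eq_self_of_injective L.subtype_injective H
  refine ⟨H.map L.subtype, hle, ?_, ?_⟩
  · intro q hq hd
    refine h1 q hq ?_
    rwa [Subgroup.card_map_of_injective L.subtype_injective] at hd
  · intro q hq hd
    refine h2 q hq ?_
    rwa [Subgroup.relIndex, hsub] at hd

theorem IsHallIn.dvd [Finite G] {π : ℕ → Prop} {J L : Subgroup G} (h : IsHallIn π J L) {q : ℕ} (hq : q.Prime)
    (hπ : π q) (hd : q ∣ Nat.card L) : q ∣ Nat.card J := by
  have hcJ : Nat.card (J.subgroupOf L) = Nat.card J :=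
    Nat.card_congr (Subgroup.subgroupOfEquivOfLe h.le).toEquiv
  have h1 := Subgroup.card_mul_index (J.subgroupOf L)
  rw [hcJ] at h1
  rw [← h1] at hd
  rcases hq.dvd_mul.mp hd with h2 | h2
  · exact h2
  · exact absurd hπ (h.index q hq h2)

/-- Conjugacy/domination of Hall subgroups. -/
theorem IsHallIn.conj [Finite G] {π : ℕ → Prop} {J L : Subgroup G} (h : IsHallIn π J L) (hL : Group.IsSolvable L)
    {K : Subgroup G} (hKL : K ≤ L) (hK : ∀ q : ℕ, q.Prime → q ∣ Nat.card K → π q) :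
    ∃ g ∈ L, ∀ k ∈ K, g * k * g⁻¹ ∈ J := by
  haveI := hL
  have hcJ : Nat.card (J.subgroupOf L) = Nat.card J :=
    Nat.card_congr (Subgroup.subgroupOfEquivOfLe h.le).toEquiv
  have hcK : Nat.card (K.subgroupOf L) = Nat.card K :=
    Nat.card_congr (Subgroup.subgroupOfEquivOfLe hKL).toEquiv
  have hmn : (Nat.card (J.subgroupOf L)).Coprime (J.subgroupOf L).index := by
    refine Nat.coprime_of_dvd ?_
    intro q hq h1 h2
    rw [hcJ] at h1
    exact h.index q hq h2 (h.primes q hq h1)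
  have hKn : (Nat.card (K.subgroupOf L)).Coprime (J.subgroupOf L).index := by
    refine Nat.coprime_of_dvd ?_
    intro q hq h1 h2
    rw [hcK] at h1
    exact h.index q hq h2 (hK q hq h1)
  obtain ⟨-, h2⟩ := Cfsg.Agent.Lib.Hall.hall_main _ L _ _ rfl (Subgroup.card_mul_index _).symm hmn
  obtain ⟨g, hg⟩ := h2 (J.subgroupOf L) (K.subgroupOf L) rfl hKn
  refine ⟨(g : G)⁻¹, L.inv_mem g.2, ?_⟩
  intro k hk
  have h3 : (⟨k, hKL hk⟩ : L) ∈ MulAut.conj g • J.subgroupOf L := hg (Subgroup.mem_subgroupOf.2 hk)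
  rw [Cfsg.Agent.Lib.PCore.mem_conj_smul_iff] at h3
  have h4 := Subgroup.mem_subgroupOf.1 h3
  simpa using h4

end Cfsg.Agent.Lib.KFour
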