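import Mathlib
import Cfsg.Agent.Lib.KFourA

/-!
# Tools for S3814: Frobenius lemma, commutators, the lemma of two primes, Lucido's lemma, rank lemma.
-/

set_option autoImplicit false
set_option linter.unusedSectionVars false
set_option linter.style.haveILetI false
set_option linter.unusedVariables false

namespace Cfsg.Agent.Lib.KFour

open Cfsg Cfsg.Agent.Lib.PCore
open scoped Pointwise

variable {G : Type*} [Group G]

/-- Commuting with a nontrivial power of an element of prime order. -/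
theorem comm_of_pow_comm {s : ℕ} [hs : Fact s.Prime] {y k : G} {i : ℕ} (hy : orderOf y = s) (h : y ^ i ≠ 1)
    (hc : y ^ i * k = k * y ^ i) : y * k = k * y := by
  have h1 : y ∈ Subgroup.zpowers (y ^ i) :=
    mem_zpowers_of_mem_zpowers hy (Subgroup.npow_mem_zpowers y i) h
  have hle : Subgroup.zpowers (y ^ i) ≤ Subgroup.centralizer ({k} : Set G) := by
    rw [Subgroup.zpowers_le, Subgroup.mem_centralizer_singleton_iff]
    exact hc
  exact Subgroup.mem_centralizer_singleton_iff.1 (hle h1)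

/-- The Frobenius lemma. -/
theorem frob_trivial [Finite G] {K W : Subgroup G} {y : G} {s : ℕ} [hs : Fact s.Prime] (hy : orderOf y = s)
    (hWab : ∀ a ∈ W, ∀ b ∈ W, a * b = b * a) (hKW : ∀ k ∈ K, Nrm k W) (hyW : Nrm y W) (hyK : Nrm y K)
    (hfpK : Fpf y K) (hcop : (Nat.card W).Coprime (Nat.card K)) (hfpW : Fpf y W) :
    ∀ k ∈ K, ∀ v ∈ W, k * v = v * k := by
  intro k hk v hv
  have h1 := star_sub K W y hWab hKW hyW hyK
    (fun i hi l hl hc => hfpK l hl (comm_of_pow_comm hy hi hc)) hfpW hv hk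
  have h2 := fix_of_pow_fix hcop hv h1
  exact mul_inv_eq_iff_eq_mul.mp h2

/-- The complement form of the Frobenius lemma: if `z` (with every nontrivial power fixed point free on
`K`) is without fixed points on `W` then `K` is trivial on `W`. -/
theorem frob_trivial' [Finite G] {K W : Subgroup G} {z : G}
    (hWab : ∀ a ∈ W, ∀ b ∈ W, a * b = b * a) (hKW : ∀ k ∈ K, Nrm k W) (hzW : Nrm z W) (hzK : Nrm z K)
    (hfp : ∀ i : ℕ, z ^ i ≠ 1 → ∀ k ∈ K, z ^ i * k = k * z ^ i → k = 1)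
    (hcop : (Nat.card W).Coprime (Nat.card K)) (hfpW : Fpf z W) :
    ∀ k ∈ K, ∀ v ∈ W, k * v = v * k := by
  intro k hk v hv
  have h1 := star_sub K W z hWab hKW hzW hzK hfp hfpW hv hk
  have h2 := fix_of_pow_fix hcop hv h1
  exact mul_inv_eq_iff_eq_mul.mp h2

/-- The commutator subgroup `[A, y]` of an abelian `A`. -/
def commSub (A : Subgroup G) (y : G) (hA : ∀ a ∈ A, ∀ b ∈ A, a * b = b * a) (hy : Nrm y A) : Subgroup G where
  carrier := {c | ∃ x ∈ A, c = y * x * y⁻¹ * x⁻¹}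
  mul_mem' := by
    rintro _ _ ⟨x, hx, rfl⟩ ⟨x', hx', rfl⟩
    refine ⟨x * x', A.mul_mem hx hx', ?_⟩
    have hc1 : y * x' * y⁻¹ * x⁻¹ = x⁻¹ * (y * x' * y⁻¹) := hA _ (hy _ hx') _ (A.inv_mem hx)
    calc y * x * y⁻¹ * x⁻¹ * (y * x' * y⁻¹ * x'⁻¹)
        = y * x * y⁻¹ * (x⁻¹ * (y * x' * y⁻¹)) * x'⁻¹ := by group
      _ = y * x * y⁻¹ * (y * x' * y⁻¹ * x⁻¹) * x'⁻¹ := by rw [hc1]
      _ = y * (x * x') * y⁻¹ * (x * x')⁻¹ := by
          have hc2 : x⁻¹ * x'⁻¹ = x'⁻¹ * x⁻¹ := hA _ (A.inv_mem hx) _ (A.inv_mem hx')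
          calc y * x * y⁻¹ * (y * x' * y⁻¹ * x⁻¹) * x'⁻¹ = y * (x * x') * y⁻¹ * (x⁻¹ * x'⁻¹) := by group
            _ = y * (x * x') * y⁻¹ * (x'⁻¹ * x⁻¹) := by rw [hc2]
            _ = y * (x * x') * y⁻¹ * (x * x')⁻¹ := by rw [mul_inv_rev]
  one_mem' := ⟨1, A.one_mem, by group⟩
  inv_mem' := by
    rintro _ ⟨x, hx, rfl⟩
    refine ⟨x⁻¹, A.inv_mem hx, ?_⟩
    have h1 : y * x * y⁻¹ * x⁻¹ * (x * (y * x⁻¹ * y⁻¹)) = 1 := by group
    have hc : x * (y * x⁻¹ * y⁻¹) = y * x⁻¹ * y⁻¹ * x⁻¹⁻¹ := by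
      rw [inv_inv]
      exact hA _ hx _ (hy _ (A.inv_mem hx))
    rw [← hc]
    exact inv_eq_of_mul_eq_one_right h1

theorem commSub_le {A : Subgroup G} {y : G} (hA : ∀ a ∈ A, ∀ b ∈ A, a * b = b * a) (hy : Nrm y A) :
    commSub A y hA hy ≤ A := by
  rintro _ ⟨x, hx, rfl⟩
  exact A.mul_mem (hy _ hx) (A.inv_mem hx)

/-- `y` is fixed point free on `[A, y]` when `|A|` is prime to the order of `y`. -/
theorem commSub_fpf [Finite G] {A : Subgroup G} {y : G} {s : ℕ} (hs : s.Prime) (hys : orderOf y = s)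
    (hA : ∀ a ∈ A, ∀ b ∈ A, a * b = b * a) (hy : Nrm y A) (hcop : (Nat.card A).Coprime s) :
    Fpf y (commSub A y hA hy) := by
  rintro c ⟨x, hx, rfl⟩ hc
  set c := y * x * y⁻¹ * x⁻¹ with hcdef
  have hcA : c ∈ A := commSub_le hA hy ⟨x, hx, rfl⟩
  have h1 : y * x * y⁻¹ = c * x := by rw [hcdef]; group
  have hpow : ∀ m : ℕ, y ^ m * x * (y ^ m)⁻¹ = c ^ m * x := by
    intro m
    induction m with
    | zero => simp
    | succ m ih =>
      have h2 : y ^ (m + 1) * x * (y ^ (m + 1))⁻¹ = y * (y ^ m * x * (y ^ m)⁻¹) * y⁻¹ := by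
        rw [pow_succ' y m]; group
      rw [h2, ih]
      have hyc : ∀ n : ℕ, y * c ^ n * y⁻¹ = c ^ n := by
        intro n
        have : y * c ^ n = c ^ n * y := by
          have hcc : Commute y c := hc
          exact (hcc.pow_right n).eq
        rw [this]; group
      calc y * (c ^ m * x) * y⁻¹ = (y * c ^ m * y⁻¹) * (y * x * y⁻¹) := by group
        _ = c ^ m * (c * x) := by rw [hyc, h1]
        _ = c ^ (m + 1) * x := by rw [pow_succ]; group
  have h3 := hpow s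
  rw [← hys, pow_orderOf_eq_one] at h3
  simp only [one_mul, inv_one, mul_one] at h3
  have h4 : c ^ orderOf y = 1 := by
    have := h3.symm
    exact mul_eq_right.mp this
  rw [hys] at h4
  have h5 : orderOf c ∣ Nat.card A := Subgroup.orderOf_dvd_natCard A hcA
  have h6 : orderOf c ∣ s := orderOf_dvd_of_pow_eq_one h4
  have h7 : orderOf c = 1 := Nat.eq_one_of_dvd_coprimes hcop h5 h6
  exact orderOf_eq_one_iff.mp h7

/-- Key use of the Frobenius lemma: commutators `[x, y]` are trivial on a `y`-fixed point free module. -/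
theorem comm_trivial [Finite G] {A W : Subgroup G} {y : G} {s : ℕ} [hs : Fact s.Prime] (hys : orderOf y = s)
    (hAab : ∀ a ∈ A, ∀ b ∈ A, a * b = b * a) (hWab : ∀ a ∈ W, ∀ b ∈ W, a * b = b * a) (hyA : Nrm y A) (hyW : Nrm y W)
    (hAW : ∀ a ∈ A, Nrm a W) (hcop : (Nat.card A).Coprime s) (hcop2 : (Nat.card W).Coprime (Nat.card A))
    (hfp : Fpf y W) {x v : G} (hx : x ∈ A) (hv : v ∈ W) : (y * x * y⁻¹ * x⁻¹) * v = v * (y * x * y⁻¹ * x⁻¹) := by
  have hle := commSub_le hAab hyA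
  refine frob_trivial (K := commSub A y hAab hyA) hys hWab (fun k hk => hAW k (hle hk)) hyW ?_
    (commSub_fpf hs.out hys hAab hyA hcop) ?_ hfp _ ⟨x, hx, rfl⟩ v hv
  · rintro _ ⟨z, hz, rfl⟩
    refine ⟨y * z * y⁻¹, hyA _ hz, ?_⟩
    group
  · exact Nat.Coprime.coprime_dvd_right (Subgroup.card_dvd_of_le hle) hcop2

/-- An element of a `q`-group has a power of order `q`. -/
theorem exists_pow_order [Finite G] {q : ℕ} [hq : Fact q.Prime] {P : Subgroup G} (hP : IsPGroup q P) {x : G} (hx : x ∈ P)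
    (h1 : x ≠ 1) : ∃ k : ℕ, orderOf (x ^ k) = q := by
  obtain ⟨n, hn⟩ := IsPGroup.iff_orderOf.mp hP ⟨x, hx⟩
  rw [Subgroup.orderOf_mk] at hn
  have hn0 : n ≠ 0 := by
    rintro rfl
    rw [pow_zero] at hn
    exact h1 (orderOf_eq_one_iff.mp hn)
  refine ⟨q ^ (n - 1), ?_⟩
  have hd : q ∣ orderOf x := by rw [hn]; exact dvd_pow_self q hn0
  have h2 := orderOf_pow_orderOf_div (x := x) (n := q) (by rw [hn]; exact pow_ne_zero _ hq.out.ne_zero) hd
  have h3 : orderOf x / q = q ^ (n - 1) := by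
    rw [hn]
    obtain ⟨m, rfl⟩ : ∃ m, n = m + 1 := ⟨n - 1, by omega⟩
    simp [pow_succ, hq.out.pos]
  rwa [h3] at h2

/-- A subgroup of a `q`-group that is nontrivial has an element of order `q`. -/
theorem exists_order_of_isPGroup [Finite G] {q : ℕ} [hq : Fact q.Prime] {P : Subgroup G} (hP : IsPGroup q P)
    (hne : P ≠ ⊥) : ∃ x ∈ P, orderOf x = q := by
  obtain ⟨x, hxP, hx, -⟩ := exists_central_order hP hne
  exact ⟨x, hxP, hx⟩

theorem card_isPGroup_coprime [Finite G] {q r : ℕ} [hq : Fact q.Prime] {P : Subgroup G} (hP : IsPGroup q P) (hr : r.Prime)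
    (hrq : r ≠ q) : (Nat.card P).Coprime r := by
  obtain ⟨k, hk⟩ := IsPGroup.iff_card.mp hP
  rw [hk]
  exact Nat.Coprime.pow_left k ((Nat.coprime_primes hq.out hr).2 hrq.symm)

/-- The centre of `P`, as a subgroup. -/
def zc (P : Subgroup G) : Subgroup G := P ⊓ Subgroup.centralizer (P : Set G)

theorem zc_abelian {P : Subgroup G} : ∀ a ∈ zc P, ∀ b ∈ zc P, a * b = b * a := by
  intro a ha b hb
  have := Subgroup.mem_centralizer_iff.1 hb.2 a ha.1
  exact this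

theorem zc_nrm {P : Subgroup G} {g : G} (hg : Nrm g P) (hg' : Nrm g⁻¹ P) : Nrm g (zc P) := by
  intro w hw
  refine Subgroup.mem_inf.2 ⟨hg w hw.1, Subgroup.mem_centralizer_iff.2 ?_⟩
  intro k hk
  have h1 := Subgroup.mem_centralizer_iff.1 hw.2 _ (hg' k hk)
  have h2 : g * (g⁻¹ * k * g⁻¹⁻¹) * w * g⁻¹ = g * (w * (g⁻¹ * k * g⁻¹⁻¹)) * g⁻¹ := by
    rw [mul_assoc g, h1]
  calc k * (g * w * g⁻¹) = g * (g⁻¹ * k * g⁻¹⁻¹) * w * g⁻¹ := by group
    _ = g * (w * (g⁻¹ * k * g⁻¹⁻¹)) * g⁻¹ := h2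
    _ = g * w * g⁻¹ * k := by group

theorem zc_ne_bot [Finite G] {q : ℕ} [hq : Fact q.Prime] {P : Subgroup G} (hP : IsPGroup q P) (hne : P ≠ ⊥) : zc P ≠ ⊥ := by
  obtain ⟨x, hxP, hx, hc⟩ := exists_central_order hP hne
  intro h
  have : x ∈ zc P := ⟨hxP, Subgroup.mem_centralizer_iff.2 (fun g hg => (hc g hg).symm)⟩
  rw [h, Subgroup.mem_bot] at this
  rw [this, orderOf_one] at hx
  exact hq.out.one_lt.ne hx

/-- A nontrivial normal `p`-subgroup of a solvable subgroup. -/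
theorem exists_normal_pgroup [Finite G] (L : Subgroup G) (hL : Group.IsSolvable L) (hne : L ≠ ⊥) :
    ∃ p : ℕ, p.Prime ∧ ∃ P : Subgroup G, P ≤ L ∧ P ≠ ⊥ ∧ IsPGroup p P ∧ ∀ l ∈ L, Nrm l P := by
  haveI := hL
  haveI : Nontrivial L := (Subgroup.nontrivial_iff_ne_bot L).2 hne
  obtain ⟨p, hp, hne'⟩ := exists_pCore_ne_bot (G := L)
  haveI : Fact p.Prime := ⟨hp⟩
  refine ⟨p, hp, (pCore p L).map L.subtype, Subgroup.map_subtype_le _, ?_, ?_, ?_⟩
  · intro h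
    exact hne' ((Subgroup.map_eq_bot_iff_of_injective _ L.subtype_injective).1 h)
  · exact (isPGroup_pCore p).map L.subtype
  · rintro l hl _ ⟨x, hx, rfl⟩
    refine ⟨⟨l, hl⟩ * x * ⟨l, hl⟩⁻¹, ?_, by simp⟩
    exact (pCore_normal p).conj_mem x hx _

/-- Lemma G, one prime. -/
theorem lemma_G_aux [Finite G] {p q : ℕ} [hp : Fact p.Prime] [hq : Fact q.Prime] {L W P : Subgroup G}
    (hPL : P ≤ L) (hPne : P ≠ ⊥) (hPp : IsPGroup p P) (hPn : ∀ l ∈ L, Nrm l P) (hqL : q ∣ Nat.card L)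
    (hW : W ≠ ⊥) (hWab : ∀ a ∈ W, ∀ b ∈ W, a * b = b * a) (hN : ∀ l ∈ L, Nrm l W)
    (hcop : (Nat.card W).Coprime (Nat.card L)) :
    (∃ x ∈ L, ∃ y ∈ L, orderOf x = p ∧ orderOf y = q ∧ x * y = y * x) ∨
      (∃ g ∈ L, (orderOf g = p ∨ orderOf g = q) ∧ ∃ w ∈ W, w ≠ 1 ∧ g * w = w * g) := by
  obtain ⟨y, hyL, hy⟩ := exists_order hq.out hqL
  by_cases hP1 : ∃ k ∈ P, k ≠ 1 ∧ y * k = k * y
  · obtain ⟨k, hkP, hk1, hc⟩ := hP1
    obtain ⟨m, hm⟩ := exists_pow_order hPp hkP hk1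
    left
    refine ⟨k ^ m, hPL (P.pow_mem hkP m), y, hyL, hm, hy, ?_⟩
    exact (((show Commute y k from hc).pow_right m).eq).symm
  have hfpP : Fpf y P := by
    intro k hk hc
    by_contra hk1
    exact hP1 ⟨k, hk, hk1, hc⟩
  by_cases hW1 : ∃ w ∈ W, w ≠ 1 ∧ y * w = w * y
  · right
    exact ⟨y, hyL, Or.inr hy, hW1⟩
  have hfpW : Fpf y W := by
    intro k hk hc
    by_contra hk1
    exact hW1 ⟨k, hk, hk1, hc⟩
  have htriv := frob_trivial (K := P) hy hWab (fun k hk => hN k (hPL hk)) (hN y hyL) (hPn y hyL) hfpP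
    (Nat.Coprime.coprime_dvd_right (Subgroup.card_dvd_of_le hPL) hcop) hfpW
  obtain ⟨k, hk, hko⟩ := exists_order_of_isPGroup hPp hPne
  obtain ⟨w, hw, hw1⟩ := (Subgroup.bot_or_exists_ne_one W).resolve_left hW
  right
  exact ⟨k, hPL hk, Or.inl hko, w, hw, hw1, htriv k hk w hw⟩

end Cfsg.Agent.Lib.KFour
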