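import Mathlib
import Cfsg.Agent.Lib.KFourB

/-!
# Lemma of two primes, Lucido's lemma, the rank lemma, the lemma on abelian sections.
-/

set_option autoImplicit false
set_option linter.unusedSectionVars false
set_option linter.style.haveILetI false
set_option linter.unusedVariables false

namespace Cfsg.Agent.Lib.KFour

open Cfsg Cfsg.Agent.Lib.PCore
open scoped Pointwise

variable {G : Type*} [Group G]

/-- No triples. -/
def NoT (σ : Finset ℕ) (G : Type*) [Group G] : Prop :=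
  ∀ x y z : G, orderOf x ∈ σ → orderOf y ∈ σ → orderOf z ∈ σ → orderOf x ≠ orderOf y → orderOf y ≠ orderOf z →
    orderOf x ≠ orderOf z → x * y = y * x → y * z = z * y → x * z = z * x → False

/-- All edges occur in `Y`. -/
def KF (σ : Finset ℕ) (Y : Subgroup G) : Prop :=
  ∀ p ∈ σ, ∀ q ∈ σ, p ≠ q → ∃ x ∈ Y, ∃ y ∈ Y, orderOf x = p ∧ orderOf y = q ∧ x * y = y * x

theorem solv_le {K L : Subgroup G} (h : K ≤ L) (hL : Group.IsSolvable L) : Group.IsSolvable K := by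
  haveI := hL
  exact Group.isSolvable_of_isSolvable_injective (Subgroup.inclusion_injective h)

theorem ne_bot_of_dvd [Finite G] {q : ℕ} (hq : q.Prime) {K : Subgroup G} (h : q ∣ Nat.card K) : K ≠ ⊥ := by
  rintro rfl
  rw [Subgroup.card_bot] at h
  exact hq.one_lt.ne' (Nat.dvd_one.mp h)

/-- Lemma G. -/
theorem lemma_G [Finite G] {e f : ℕ} (he : e.Prime) (hf : f.Prime) {L W : Subgroup G} (hL : Group.IsSolvable L)
    (hprimes : ∀ q : ℕ, q.Prime → q ∣ Nat.card L → q = e ∨ q = f) (heL : e ∣ Nat.card L) (hfL : f ∣ Nat.card L)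
    (hW : W ≠ ⊥) (hWab : ∀ a ∈ W, ∀ b ∈ W, a * b = b * a) (hN : ∀ l ∈ L, Nrm l W)
    (hcop : (Nat.card W).Coprime (Nat.card L)) :
    (∃ x ∈ L, ∃ y ∈ L, orderOf x = e ∧ orderOf y = f ∧ x * y = y * x) ∨
      (∃ g ∈ L, (orderOf g = e ∨ orderOf g = f) ∧ ∃ w ∈ W, w ≠ 1 ∧ g * w = w * g) := by
  haveI : Fact e.Prime := ⟨he⟩
  haveI : Fact f.Prime := ⟨hf⟩
  obtain ⟨p, hp, P, hPL, hPne, hPp, hPn⟩ := exists_normal_pgroup L hL (ne_bot_of_dvd he heL)
  haveI : Fact p.Prime := ⟨hp⟩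
  have hpP : p ∣ Nat.card P := by
    obtain ⟨x, hx, hxo⟩ := exists_order_of_isPGroup hPp hPne
    rw [← hxo]
    exact Subgroup.orderOf_dvd_natCard P hx
  rcases hprimes p hp (hpP.trans (Subgroup.card_dvd_of_le hPL)) with rfl | rfl
  · exact lemma_G_aux hPL hPne hPp hPn hfL hW hWab hN hcop
  · rcases lemma_G_aux hPL hPne hPp hPn heL hW hWab hN hcop with ⟨x, hx, y, hy, h1, h2, h3⟩ | ⟨g, hg, h1, h2⟩
    · exact Or.inl ⟨y, hy, x, hx, h2, h1, h3.symm⟩
    · exact Or.inr ⟨g, hg, h1.symm, h2⟩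

/-- Lucido's lemma. -/
theorem lucido [Finite G] (S : Finset ℕ) (hS : S.card = 3) (hSp : ∀ q ∈ S, q.Prime) {Y : Subgroup G}
    (hY : Group.IsSolvable Y) (hd : ∀ q ∈ S, q ∣ Nat.card Y) :
    ∃ x ∈ Y, ∃ y ∈ Y, orderOf x ∈ S ∧ orderOf y ∈ S ∧ orderOf x ≠ orderOf y ∧ x * y = y * x := by
  obtain ⟨Z, hZ⟩ := exists_isHallIn (· ∈ S) Y hY
  have hZsol := solv_le hZ.le hY
  have hdZ : ∀ q ∈ S, q ∣ Nat.card Z := fun q hq => hZ.dvd (hSp q hq) hq (hd q hq)
  obtain ⟨q₀, hq₀⟩ : S.Nonempty := by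
    rw [← Finset.card_pos]; omega
  obtain ⟨t, ht, P, hPZ, hPne, hPp, hPn⟩ := exists_normal_pgroup Z hZsol (ne_bot_of_dvd (hSp q₀ hq₀) (hdZ q₀ hq₀))
  haveI : Fact t.Prime := ⟨ht⟩
  have htP : t ∣ Nat.card P := by
    obtain ⟨x, hx, hxo⟩ := exists_order_of_isPGroup hPp hPne
    rw [← hxo]
    exact Subgroup.orderOf_dvd_natCard P hx
  have htS : t ∈ S := hZ.primes t ht (htP.trans (Subgroup.card_dvd_of_le hPZ))
  have hcard2 : (S.erase t).card = 2 := by rw [Finset.card_erase_of_mem htS]; omega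
  obtain ⟨e, f, hef, hSe⟩ := Finset.card_eq_two.mp hcard2
  have heS : e ∈ S.erase t := by rw [hSe]; simp
  have hfS : f ∈ S.erase t := by rw [hSe]; simp
  have heS' := Finset.mem_of_mem_erase heS
  have hfS' := Finset.mem_of_mem_erase hfS
  have het : e ≠ t := Finset.ne_of_mem_erase heS
  have hft : f ≠ t := Finset.ne_of_mem_erase hfS
  obtain ⟨L, hLh⟩ := exists_isHallIn (· ∈ S.erase t) Z hZsol
  have hLsol := solv_le hLh.le hZsol
  have hdL : ∀ q ∈ S.erase t, q ∣ Nat.card L := fun q hq =>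
    hLh.dvd (hSp q (Finset.mem_of_mem_erase hq)) hq (hdZ q (Finset.mem_of_mem_erase hq))
  have hWle : zc P ≤ P := inf_le_left
  have hWp : IsPGroup t (zc P) := hPp.to_le hWle
  have hcop : (Nat.card (zc P)).Coprime (Nat.card L) := by
    refine Nat.coprime_of_dvd ?_
    intro q hq h1 h2
    have hqt : q = t := by
      obtain ⟨k, hk⟩ := IsPGroup.iff_card.mp hWp
      rw [hk] at h1
      exact (Nat.prime_dvd_prime_iff_eq hq ht).1 (hq.dvd_of_dvd_pow h1)
    subst hqt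
    exact (Finset.mem_erase.1 (hLh.primes q hq h2)).1 rfl
  have hN : ∀ l ∈ L, Nrm l (zc P) := by
    intro l hl
    exact zc_nrm (hPn l (hLh.le hl)) (hPn l⁻¹ (Z.inv_mem (hLh.le hl)))
  rcases lemma_G (hSp e heS') (hSp f hfS') hLsol (fun q hq h => by
      have := hLh.primes q hq h
      rw [hSe] at this
      simpa using this) (hdL e heS) (hdL f hfS) (zc_ne_bot hPp hPne) zc_abelian hN hcop with
    ⟨x, hx, y, hy, h1, h2, h3⟩ | ⟨g, hg, h1, w, hw, hw1, hc⟩
  · refine ⟨x, hZ.le (hLh.le hx), y, hZ.le (hLh.le hy), ?_, ?_, ?_, h3⟩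
    · rwa [h1]
    · rwa [h2]
    · rwa [h1, h2]
  · obtain ⟨m, hm⟩ := exists_pow_order hWp hw hw1
    have hgS : orderOf g ∈ S.erase t := by
      rw [hSe]
      rcases h1 with h | h <;> simp [h]
    refine ⟨g, hZ.le (hLh.le hg), w ^ m, hZ.le (hPZ (hWle ((zc P).pow_mem hw m))), Finset.mem_of_mem_erase hgS, ?_, ?_, ?_⟩
    · rwa [hm]
    · rw [hm]; exact Finset.ne_of_mem_erase hgS
    · exact ((show Commute g w from hc).pow_right m).eq

/-- Conjugating preserves order. -/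
theorem orderOf_conj' (g x : G) : orderOf (g * x * g⁻¹) = orderOf x := by
  have := orderOf_injective (MulAut.conj g).toMonoidHom (MulAut.conj g).injective x
  simpa [MulAut.conj_apply] using this

/-- The rank lemma. -/
theorem rank_lemma [Finite G] (hsol : Group.IsSolvable G) {σ : Finset ℕ} (hσ : σ.card = 4) (hp : ∀ p ∈ σ, p.Prime)
    (hKF : KF σ (⊤ : Subgroup G)) (hNT : NoT σ G) {d : ℕ} (hd : d ∈ σ) : ∃ E : Subgroup G, IsE2 d E := by
  by_contra hno
  push Not at hno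
  haveI : Fact d.Prime := ⟨hp d hd⟩
  have hnoE : ∀ x y : G, orderOf x = d → orderOf y = d → x * y = y * x → y ∈ Subgroup.zpowers x := by
    intro x y hx hy hc
    by_contra hne
    exact hno _ (isE2_of_pair hx hy hc hne)
  have htop : Group.IsSolvable (⊤ : Subgroup G) := by
    haveI := hsol
    exact inferInstance
  obtain ⟨J, hJ⟩ := exists_isHallIn (· = d) (⊤ : Subgroup G) htop
  have hcard3 : (σ.erase d).card = 3 := by rw [Finset.card_erase_of_mem hd]; omega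
  obtain ⟨q₀, hq₀⟩ : (σ.erase d).Nonempty := by rw [← Finset.card_pos]; omega
  have hdd : d ∣ Nat.card (⊤ : Subgroup G) := by
    obtain ⟨x, -, y, -, hx, -, -⟩ := hKF d hd q₀ (Finset.mem_of_mem_erase hq₀) (Finset.ne_of_mem_erase hq₀).symm
    rw [← hx]
    exact Subgroup.orderOf_dvd_natCard _ (Subgroup.mem_top x)
  have hJp : IsPGroup d J := by
    rw [IsPGroup.iff_card]
    have h1 : ∀ q : ℕ, q.Prime → q ∣ Nat.card J → q = d := fun q hq h => hJ.primes q hq h
    have hne : Nat.card J ≠ 0 := Nat.card_pos.ne'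
    refine ⟨(Nat.card J).primeFactorsList.length, ?_⟩
    exact Nat.eq_prime_pow_of_unique_prime_dvd hne (fun {q} hq h => h1 q hq h)
  have hJne := ne_bot_of_dvd (hp d hd) (hJ.dvd (hp d hd) rfl hdd)
  obtain ⟨x, hxJ, hx, hxc⟩ := exists_central_order hJp hJne
  have hconj : ∀ y : G, orderOf y = d → ∃ g : G, g * y * g⁻¹ ∈ Subgroup.zpowers x := by
    intro y hy
    obtain ⟨g, -, hg⟩ := hJ.conj htop (K := Subgroup.zpowers y) le_top (by
      intro q hq h
      rw [Nat.card_zpowers, hy] at h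
      exact (Nat.prime_dvd_prime_iff_eq hq (hp d hd)).1 h)
    have h1 := hg y (Subgroup.mem_zpowers y)
    refine ⟨g, hnoE x _ hx ((orderOf_conj' g y).trans hy) ?_⟩
    exact hxc _ h1
  let C : Subgroup G := Subgroup.centralizer ({x} : Set G)
  have hC : ∀ q ∈ σ.erase d, q ∣ Nat.card C := by
    intro q hq
    have hq' := Finset.mem_of_mem_erase hq
    obtain ⟨y, -, w, -, hy, hw, hc⟩ := hKF d hd q hq' (Finset.ne_of_mem_erase hq).symm
    obtain ⟨g, hg⟩ := hconj y hy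
    have hy1 : (g * y * g⁻¹) ≠ 1 := by
      intro h
      have := orderOf_conj' g y
      rw [h, orderOf_one, hy] at this
      exact (hp d hd).one_lt.ne this
    have hx1 := mem_zpowers_of_mem_zpowers hx hg hy1
    have hle : Subgroup.zpowers (g * y * g⁻¹) ≤ Subgroup.centralizer ({g * w * g⁻¹} : Set G) := by
      rw [Subgroup.zpowers_le, Subgroup.mem_centralizer_singleton_iff]
      calc g * y * g⁻¹ * (g * w * g⁻¹) = g * (y * w) * g⁻¹ := by group
        _ = g * (w * y) * g⁻¹ := by rw [hc]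
        _ = g * w * g⁻¹ * (g * y * g⁻¹) := by group
    have h2 := Subgroup.mem_centralizer_singleton_iff.1 (hle hx1)
    have hmem : g * w * g⁻¹ ∈ C := by
      rw [Subgroup.mem_centralizer_singleton_iff]
      exact h2.symm
    rw [← hw, ← orderOf_conj' g w]
    exact Subgroup.orderOf_dvd_natCard C hmem
  have hCsol : Group.IsSolvable C := solv_le le_top htop
  obtain ⟨u, hu, v, hv, h1, h2, h3, h4⟩ := lucido (σ.erase d) hcard3 (fun q hq => hp q (Finset.mem_of_mem_erase hq)) hCsol hC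
  have hux : u * x = x * u := Subgroup.mem_centralizer_singleton_iff.1 hu
  have hvx : v * x = x * v := Subgroup.mem_centralizer_singleton_iff.1 hv
  refine hNT x u v (by rw [hx]; exact hd) (Finset.mem_of_mem_erase h1) (Finset.mem_of_mem_erase h2) ?_ h3 ?_ hux.symm h4 hvx.symm
  · rw [hx]; exact (Finset.ne_of_mem_erase h1).symm
  · rw [hx]; exact (Finset.ne_of_mem_erase h2).symm

theorem comm_of_comm_one {y x : G} (h : y * x * y⁻¹ * x⁻¹ = 1) : y * x = x * y :=
  mul_inv_eq_iff_eq_mul.mp (mul_inv_eq_one.mp h)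

theorem cop_p [Finite G] {p q : ℕ} [Fact p.Prime] [Fact q.Prime] (hpq : p ≠ q) {A B : Subgroup G} (hA : IsPGroup p A)
    (hB : IsPGroup q B) : (Nat.card A).Coprime (Nat.card B) :=
  IsPGroup.coprime_card_of_ne p q hpq A B hA hB

/-- Eliminating a triple. -/
theorem NoT.elim3 {σ : Finset ℕ} (h : NoT σ G) {a b c : ℕ} (ha : a ∈ σ) (hb : b ∈ σ) (hc : c ∈ σ) (hab : a ≠ b)
    (hbc : b ≠ c) (hac : a ≠ c) {x y z : G} (hx : orderOf x = a) (hy : orderOf y = b) (hz : orderOf z = c)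
    (h1 : x * y = y * x) (h2 : y * z = z * y) (h3 : x * z = z * x) : False :=
  h x y z (by rwa [hx]) (by rwa [hy]) (by rwa [hz]) (by rwa [hx, hy]) (by rwa [hy, hz]) (by rwa [hx, hz]) h1 h2 h3

/-- Eliminating a triple whose third member is a nontrivial element of a `c`-group. -/
theorem NoT.elim_p [Finite G] {σ : Finset ℕ} (h : NoT σ G) {a b c : ℕ} [Fact c.Prime] (ha : a ∈ σ) (hb : b ∈ σ)
    (hc : c ∈ σ) (hab : a ≠ b) (hbc : b ≠ c) (hac : a ≠ c) {x y w : G} {P : Subgroup G} (hP : IsPGroup c P)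
    (hw : w ∈ P) (hw1 : w ≠ 1) (hx : orderOf x = a) (hy : orderOf y = b)
    (h1 : x * y = y * x) (h2 : y * w = w * y) (h3 : x * w = w * x) : False := by
  obtain ⟨m, hm⟩ := exists_pow_order hP hw hw1
  exact h.elim3 ha hb hc hab hbc hac hx hy hm h1 ((show Commute y w from h2).pow_right m).eq
    ((show Commute x w from h3).pow_right m).eq

theorem nrm_inf_centralizer {y c : G} {X : Subgroup G} (hX : Nrm y X) (hc : y * c = c * y) :
    Nrm y (X ⊓ Subgroup.centralizer ({c} : Set G)) := by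
  intro w hw
  refine Subgroup.mem_inf.2 ⟨hX w hw.1, ?_⟩
  have h1 : w * c = c * w := Subgroup.mem_centralizer_singleton_iff.1 hw.2
  have hc' : y⁻¹ * c = c * y⁻¹ := by
    have : y⁻¹ * (y * c) * y⁻¹ = y⁻¹ * (c * y) * y⁻¹ := by rw [hc]
    simpa [mul_assoc] using this.symm
  rw [Subgroup.mem_centralizer_singleton_iff]
  calc y * w * y⁻¹ * c = y * w * (y⁻¹ * c) := by group
    _ = y * w * (c * y⁻¹) := by rw [hc']
    _ = y * (w * c) * y⁻¹ := by group
    _ = y * (c * w) * y⁻¹ := by rw [h1]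
    _ = (y * c) * w * y⁻¹ := by group
    _ = (c * y) * w * y⁻¹ := by rw [hc]
    _ = c * (y * w * y⁻¹) := by group

theorem comm_of_mul_pow {a b : ℕ} [Fact a.Prime] [Fact b.Prime] (hab : a ≠ b) {u w k : G} (hu : orderOf u = a)
    (hw : orderOf w = b) (hc : u * w = w * u) {i : ℕ} (hi : u ^ i ≠ 1)
    (h : (u * w) ^ i * k = k * (u * w) ^ i) : u * k = k * u := by
  have hwb : w ^ b = 1 := by rw [← hw]; exact pow_orderOf_eq_one w
  have h1 : (u * w) ^ (i * b) = u ^ (i * b) := by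
    rw [(show Commute u w from hc).mul_pow, pow_mul w, pow_right_comm w, hwb, one_pow, mul_one]
  have h2 : u ^ (i * b) * k = k * u ^ (i * b) := by
    rw [← h1, pow_mul]
    exact ((show Commute ((u * w) ^ i) k from h).pow_left b).eq
  have h3 : u ^ (i * b) ≠ 1 := by
    intro h4
    have h5 := orderOf_dvd_of_pow_eq_one h4
    rw [hu] at h5
    rcases (Fact.out : a.Prime).dvd_mul.mp h5 with h6 | h6
    · apply hi
      rw [← orderOf_dvd_iff_pow_eq_one, hu]
      exact h6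
    · exact hab ((Nat.prime_dvd_prime_iff_eq Fact.out Fact.out).1 h6)
  exact comm_of_pow_comm hu h3 h2

/-- The data of the abelian section lemma. -/
structure QData (σ : Finset ℕ) (t r a b : ℕ) (A V : Subgroup G) (ya yb : G) : Prop where
  hNT : NoT σ G
  ht : t ∈ σ
  hr : r ∈ σ
  ha : a ∈ σ
  hb : b ∈ σ
  tr : t ≠ r
  ta : t ≠ a
  tb : t ≠ b
  ra : r ≠ a
  rb : r ≠ b
  ab : a ≠ b
  hA : IsPGroup t A
  hAab : ∀ x ∈ A, ∀ y ∈ A, x * y = y * x
  hV : IsPGroup r V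
  hVab : ∀ x ∈ V, ∀ y ∈ V, x * y = y * x
  hAV : ∀ x ∈ A, Nrm x V
  hfaith : ∀ x ∈ A, (∀ v ∈ V, x * v = v * x) → x = 1
  hya : orderOf ya = a
  hyb : orderOf yb = b
  hc : ya * yb = yb * ya
  hyaA : Nrm ya A
  hybA : Nrm yb A
  hyaV : Nrm ya V
  hybV : Nrm yb V

theorem QData.swap {σ : Finset ℕ} {t r a b : ℕ} {A V : Subgroup G} {ya yb : G} (h : QData σ t r a b A V ya yb) :
    QData σ t r b a A V yb ya :=
  { h with
    ha := h.hb, hb := h.ha, ta := h.tb, tb := h.ta, ra := h.rb, rb := h.ra, ab := h.ab.symm, hya := h.hyb,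
    hyb := h.hya, hc := h.hc.symm, hyaA := h.hybA, hybA := h.hyaA, hyaV := h.hybV, hybV := h.hyaV }

section QLemma

variable [Finite G] {σ : Finset ℕ} {t r a b : ℕ} [Fact t.Prime] [Fact r.Prime] [Fact a.Prime] [Fact b.Prime]
  {A V : Subgroup G} {ya yb : G}

theorem QData.left (h : QData σ t r a b A V ya yb) (hfp : Fpf ya V) :
    (∀ x ∈ A, ya * x = x * ya) ∧ Fpf yb A := by
  have hcomm : ∀ x ∈ A, ya * x = x * ya := by
    intro x hx
    have h1 : ∀ v ∈ V, (ya * x * ya⁻¹ * x⁻¹) * v = v * (ya * x * ya⁻¹ * x⁻¹) := fun v hv =>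
      comm_trivial h.hya h.hAab h.hVab h.hyaA h.hyaV h.hAV (card_isPGroup_coprime h.hA Fact.out h.ta.symm)
        (cop_p h.tr.symm h.hV h.hA) hfp hx hv
    have h2 := h.hfaith _ (A.mul_mem (h.hyaA x hx) (A.inv_mem hx)) h1
    exact comm_of_comm_one h2
  refine ⟨hcomm, ?_⟩
  intro k hk hc
  by_contra hk1
  exact h.hNT.elim_p h.ha h.hb h.ht h.ab h.tb.symm h.ta.symm h.hA hk hk1 h.hya h.hyb h.hc hc (hcomm k hk)

theorem QData.fix (h : QData σ t r a b A V ya yb) (hfp : ¬ Fpf ya V) : ∀ k ∈ A, ya * k = k * ya → k = 1 := by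
  classical
  have : ∃ v ∈ V, ya * v = v * ya ∧ v ≠ 1 := by
    unfold Fpf at hfp
    push Not at hfp
    exact hfp
  obtain ⟨v, hv, hvc, hv1⟩ := this
  set C := Subgroup.centralizer ({ya} : Set G) with hC
  have hmemC : ∀ {x : G}, x ∈ C ↔ ya * x = x * ya := by
    intro x
    rw [hC, Subgroup.mem_centralizer_singleton_iff]
    exact ⟨fun h => h.symm, fun h => h.symm⟩
  have hybW : Nrm yb (V ⊓ C) := nrm_inf_centralizer h.hybV h.hc.symm
  have hybA' : Nrm yb (A ⊓ C) := nrm_inf_centralizer h.hybA h.hc.symm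
  have hfpW : Fpf yb (V ⊓ C) := by
    intro w hw hc
    by_contra hw1
    exact h.hNT.elim_p h.ha h.hb h.hr h.ab h.rb.symm h.ra.symm h.hV hw.1 hw1 h.hya h.hyb h.hc hc (hmemC.1 hw.2)
  have hA'V : ∀ x ∈ A ⊓ C, Nrm x (V ⊓ C) := fun x hx =>
    nrm_inf_centralizer (h.hAV x hx.1) (hmemC.1 hx.2).symm
  have hcomm : ∀ x ∈ A ⊓ C, yb * x = x * yb := by
    intro x hx
    have h1 : (yb * x * yb⁻¹ * x⁻¹) * v = v * (yb * x * yb⁻¹ * x⁻¹) :=
      comm_trivial h.hyb (A := A ⊓ C) (W := V ⊓ C) (fun p hp q hq => h.hAab p hp.1 q hq.1)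
        (fun p hp q hq => h.hVab p hp.1 q hq.1) hybA' hybW hA'V
        (card_isPGroup_coprime (h.hA.to_le inf_le_left) Fact.out h.tb.symm)
        (cop_p h.tr.symm (h.hV.to_le inf_le_left) (h.hA.to_le inf_le_left)) hfpW hx ⟨hv, hmemC.2 hvc⟩
    have hcA' : yb * x * yb⁻¹ * x⁻¹ ∈ A ⊓ C := (A ⊓ C).mul_mem (hybA' x hx) ((A ⊓ C).inv_mem hx)
    by_cases hc1 : yb * x * yb⁻¹ * x⁻¹ = 1
    · exact comm_of_comm_one hc1
    · exfalso
      obtain ⟨m, hm⟩ := exists_pow_order h.hA hcA'.1 hc1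
      exact h.hNT.elim_p h.ha h.ht h.hr h.ta.symm h.tr h.ra.symm h.hV hv hv1 h.hya hm
        ((show Commute ya _ from hmemC.1 hcA'.2).pow_right m).eq
        ((show Commute _ v from h1).pow_left m).eq hvc
  intro k hk hc
  by_contra hk1
  have hkC : k ∈ A ⊓ C := ⟨hk, hmemC.2 hc⟩
  exact h.hNT.elim_p h.ha h.hb h.ht h.ab h.tb.symm h.ta.symm h.hA hk hk1 h.hya h.hyb h.hc (hcomm k hkC) hc

/-- The abelian section lemma. -/
theorem QData.main (h : QData σ t r a b A V ya yb) (hAne : A ≠ ⊥) :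
    ((∀ x ∈ A, ya * x = x * ya) ∧ Fpf ya V ∧ Fpf yb A) ∨ ((∀ x ∈ A, yb * x = x * yb) ∧ Fpf yb V ∧ Fpf ya A) := by
  by_cases h1 : Fpf ya V
  · exact Or.inl ⟨(h.left h1).1, h1, (h.left h1).2⟩
  by_cases h2 : Fpf yb V
  · exact Or.inr ⟨(h.swap.left h2).1, h2, (h.swap.left h2).2⟩
  exfalso
  have hTa := h.fix h1
  have hTb := h.swap.fix h2
  apply hAne
  rw [eq_bot_iff]
  intro k hk
  rw [Subgroup.mem_bot]
  refine h.hfaith k hk ?_
  have hzV : Nrm (ya * yb) V := h.hyaV.mul h.hybV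
  have hzA : Nrm (ya * yb) A := h.hyaA.mul h.hybA
  refine frob_trivial' (K := A) (W := V) (z := ya * yb) h.hVab h.hAV hzV hzA ?_ (cop_p h.tr.symm h.hV h.hA) ?_ k hk
  · intro i hi k hk hc
    by_cases h3 : ya ^ i = 1
    · have h4 : yb ^ i ≠ 1 := by
        intro h5
        apply hi
        rw [(show Commute ya yb from h.hc).mul_pow, h3, h5, one_mul]
      have h5 : (yb * ya) ^ i * k = k * (yb * ya) ^ i := by rw [← h.hc]; exact hc
      exact hTb k hk (comm_of_mul_pow h.ab.symm h.hyb h.hya h.hc.symm h4 h5)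
    · exact hTa k hk (comm_of_mul_pow h.ab h.hya h.hyb h.hc h3 hc)
  · intro v hv hc
    by_contra hv1
    have h3 : (ya * yb) ^ 1 * v = v * (ya * yb) ^ 1 := by simpa using hc
    have h4 : (yb * ya) ^ 1 * v = v * (yb * ya) ^ 1 := by rw [← h.hc]; exact h3
    have hya1 : ya ^ 1 ≠ 1 := by
      rw [pow_one]; intro h5
      have := h.hya
      rw [h5, orderOf_one] at this
      exact (Fact.out : a.Prime).one_lt.ne this
    have hyb1 : yb ^ 1 ≠ 1 := by
      rw [pow_one]; intro h5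
      have := h.hyb
      rw [h5, orderOf_one] at this
      exact (Fact.out : b.Prime).one_lt.ne this
    have h5 := comm_of_mul_pow h.ab h.hya h.hyb h.hc hya1 h3
    have h6 := comm_of_mul_pow h.ab.symm h.hyb h.hya h.hc.symm hyb1 h4
    exact h.hNT.elim_p h.ha h.hb h.hr h.ab h.rb.symm h.ra.symm h.hV hv hv1 h.hya h.hyb h.hc h6 h5

end QLemma

end Cfsg.Agent.Lib.KFour
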