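import Mathlib
import Cfsg.Agent.Lib.KFourC
import Cfsg.Agent.Lib.HHFree
import Cfsg.Agent.Lib.BGSec

/-!
# Shult's lemma in the form needed for S3814.
-/

set_option autoImplicit false
set_option linter.unusedSectionVars false
set_option linter.style.haveILetI false
set_option linter.unusedVariables false

namespace Cfsg.Agent.Lib.KFour

open Cfsg Cfsg.Agent.Lib.PCore
open scoped Pointwise

universe u

variable {G : Type u} [Group G]

/-- A fixed point free element of prime order normalizing a `t`-group (`t` odd) on an elementary abelian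
section: its commutators act trivially. -/
theorem shult [Finite G] {t r s : ℕ} [Fact t.Prime] [Fact r.Prime] [Fact s.Prime] (ht2 : t ≠ 2) (hts : t ≠ s)
    (hrt : r ≠ t) (hrs : r ≠ s) {T V : Subgroup G} {y : G} (hT : IsPGroup t T) (hV : ∀ v ∈ V, v ^ r = 1)
    (hVab : ∀ a ∈ V, ∀ b ∈ V, a * b = b * a) (hTV : ∀ g ∈ T, Nrm g V) (hyT : Nrm y T) (hyV : Nrm y V)
    (hy : orderOf y = s) (hfp : Fpf y V) :
    ∀ g ∈ T, ∀ v ∈ V, (y * g * y⁻¹ * g⁻¹) * v = v * (y * g * y⁻¹ * g⁻¹) := by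
  classical
  by_cases hV1 : V = ⊥
  · intro g _ v hv
    rw [hV1, Subgroup.mem_bot] at hv
    simp [hv]
  by_contra hcon
  push Not at hcon
  obtain ⟨g₀, hg₀, v₀, hv₀, hne⟩ := hcon
  let Γ : Subgroup G := Subgroup.normalizer (V : Set G)
  have hΓ : ∀ g ∈ Γ, ∀ a ∈ V, g * a * g⁻¹ ∈ V := fun g hg => nrm_of_mem_normalizer hg
  have hyΓ : y ∈ Γ := hyV.mem_normalizer
  have hTΓ : ∀ g ∈ T, g ∈ Γ := fun g hg => (hTV g hg).mem_normalizer
  obtain ⟨M, i1, i2, i3, f, ρ, hfs, hfa, hfk, hfe⟩ := Cfsg.Agent.Lib.BGSec.exists_sec r V ⊥ Γ bot_le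
    (fun a ha b hb => by
      rw [Subgroup.mem_bot]
      have := hVab a ha b hb
      rw [this]; group)
    (fun a ha => by rw [Subgroup.mem_bot]; exact hV a ha) hΓ
    (fun g _ a ha => by
      rw [Subgroup.mem_bot] at ha ⊢
      rw [ha]; group)
  let ρ₁ : Γ →* Module.End (ZMod r) M := (Units.coeHom _).comp ρ
  have hρ₁ : ∀ (g : Γ) (a : V), ρ₁ g (f a) = f ⟨(g : G) * a * (g : G)⁻¹, hΓ g g.2 a a.2⟩ := hfe
  obtain ⟨U, i4, i5, i6, ρ', h1, h2, -⟩ := Cfsg.Agent.Lib.HHFree.exists_closure_rep ρ₁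
  let K := AlgebraicClosure (ZMod r)
  haveI hchar : CharP K r := charP_of_injective_algebraMap (algebraMap (ZMod r) K).injective r
  have hcast : ∀ q : ℕ, q.Prime → q ≠ r → (q : K) ≠ 0 := by
    intro q hq hne h0
    rw [CharP.cast_eq_zero_iff K r] at h0
    exact hne ((Nat.prime_dvd_prime_iff_eq Fact.out hq).1 h0).symm
  have hfcancel : ∀ a b : V, f a = f b → a = b := by
    intro a b hab
    have h3 : f (a * b⁻¹) = 0 := by
      have h4 : f (a * b⁻¹) + f b = f a := by rw [← hfa]; simp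
      rw [hab] at h4
      exact add_eq_right.mp h4
    rw [hfk, Subgroup.mem_bot] at h3
    have h5 : a * b⁻¹ = 1 := Subtype.ext h3
    exact mul_inv_eq_one.mp h5
  have hkerρ : ∀ g : Γ, ρ' g = 1 → ∀ a ∈ V, (g : G) * a = a * g := by
    intro g hg a ha
    have h3 := h1 g hg
    have h4 := hρ₁ g ⟨a, ha⟩
    rw [h3, Module.End.one_apply] at h4
    have h5 := hfcancel _ _ h4
    have h6 : a = (g : G) * a * (g : G)⁻¹ := congrArg Subtype.val h5
    rw [eq_mul_inv_iff_mul_eq] at h6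
    exact h6.symm
  have hρ₁fix : ∀ w : M, ρ₁ ⟨y, hyΓ⟩ w = w → w = 0 := by
    intro w hw
    obtain ⟨a, rfl⟩ := hfs w
    rw [hρ₁] at hw
    have h5 := hfcancel _ _ hw
    have h6 : y * (a : G) * y⁻¹ = a := congrArg Subtype.val h5
    have h7 : y * (a : G) = a * y := by rwa [mul_inv_eq_iff_eq_mul] at h6
    have h8 := hfp a a.2 h7
    rw [hfk, Subgroup.mem_bot]
    exact h8
  have hker := h2 ⟨y, hyΓ⟩ hρ₁fix
  haveI : Finite Γ := inferInstance
  let R := ρ'.range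
  haveI : Finite R := Finite.of_surjective ρ'.rangeRestrict ρ'.rangeRestrict_surjective
  let rr := ρ'.rangeRestrict
  have hrr : ∀ g, ((rr g : R) : (Module.End K U)ˣ) = ρ' g := fun g => rfl
  let x : R := rr ⟨y, hyΓ⟩
  let T' : Subgroup Γ := T.subgroupOf Γ
  let Q : Subgroup R := T'.map rr
  have hQ : IsPGroup t Q := by
    refine IsPGroup.map ?_ rr
    exact IsPGroup.comap_of_injective hT Γ.subtype Γ.subtype_injective
  have hxo : orderOf x = s := by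
    refine orderOf_eq_prime ?_ ?_
    · rw [← map_pow]
      have : (⟨y, hyΓ⟩ : Γ) ^ s = 1 := by
        apply Subtype.ext
        simp only [Subgroup.coe_pow, Subgroup.coe_one]
        rw [← hy]
        exact pow_orderOf_eq_one y
      rw [this, map_one]
    · intro hx1
      have hx2 : ρ' ⟨y, hyΓ⟩ = 1 := congrArg Subtype.val hx1
      have h3 := hkerρ _ hx2
      obtain ⟨w, hw, hw1⟩ := (Subgroup.bot_or_exists_ne_one V).resolve_left hV1
      exact hw1 (hfp w hw (h3 w hw))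
  have hxQ : x ∈ Subgroup.normalizer (Q : Set R) := by
    apply Nrm.mem_normalizer
    rintro _ ⟨g, hg, rfl⟩
    refine ⟨⟨y, hyΓ⟩ * g * (⟨y, hyΓ⟩ : Γ)⁻¹, ?_, by simp [x]⟩
    exact hyT _ hg
  have hnt : ∃ q ∈ Q, x * q ≠ q * x := by
    refine ⟨rr ⟨g₀, hTΓ g₀ hg₀⟩, ⟨_, hg₀, rfl⟩, ?_⟩
    intro hcomm
    have h3 : ρ' (⟨y, hyΓ⟩ * ⟨g₀, hTΓ g₀ hg₀⟩ * (⟨y, hyΓ⟩ : Γ)⁻¹ * (⟨g₀, hTΓ g₀ hg₀⟩ : Γ)⁻¹) = 1 := by
      have h4 : ρ' ⟨y, hyΓ⟩ * ρ' ⟨g₀, hTΓ g₀ hg₀⟩ = ρ' ⟨g₀, hTΓ g₀ hg₀⟩ * ρ' ⟨y, hyΓ⟩ := congrArg Subtype.val hcomm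
      rw [map_mul, map_mul, map_mul, map_inv, map_inv, h4]
      group
    have h4 := hkerρ _ h3 v₀ hv₀
    exact hne (by simpa using h4)
  have hht := Cfsg.Agent.Lib.HHFree.layer4 (K := K) (U := U) (Γ := R) R.subtype R.subtype_injective
    (q := t) (s := s) Fact.out Fact.out hts (hcast t Fact.out hrt.symm) (hcast s Fact.out hrs.symm) x hxo Q hQ hxQ hnt hker
  exact ht2 hht.1

end Cfsg.Agent.Lib.KFour
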