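import Mathlib
import Cfsg.Agent.Lib.KFourS

/-!
# Cores inside subgroups, and the main lemma on a `t`-subgroup of rank two (Lemma M).
-/

set_option autoImplicit false
set_option linter.unusedSectionVars false
set_option linter.style.haveILetI false
set_option linter.unusedVariables false

namespace Cfsg.Agent.Lib.KFour

open Cfsg Cfsg.Agent.Lib.PCore
open scoped Pointwise

variable {G : Type*} [Group G]

/-- Conjugates of rank two subgroups. -/
theorem IsE2.conj {q : ℕ} {E : Subgroup G} (hE : IsE2 q E) (g : G) :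
    IsE2 q (E.map (MulAut.conj g).toMonoidHom) := by
  refine ⟨?_, ?_, ?_⟩
  · rintro _ ⟨a, ha, rfl⟩ _ ⟨b, hb, rfl⟩
    rw [← map_mul, ← map_mul, hE.1 a ha b hb]
  · rintro _ ⟨a, ha, rfl⟩
    rw [← map_pow, hE.2.1 a ha, map_one]
  · rw [Subgroup.card_map_of_injective (MulAut.conj g).injective]
    exact hE.2.2

theorem IsE2.exists_ne [Finite G] {q : ℕ} [hq : Fact q.Prime] {E : Subgroup G} (hE : IsE2 q E) : ∃ e ∈ E, e ≠ 1 := by
  refine (Subgroup.bot_or_exists_ne_one E).resolve_left ?_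
  rintro rfl
  have h := hE.2.2
  rw [Subgroup.card_bot] at h
  have : 2 ≤ q := hq.out.two_le
  nlinarith

theorem nrm_zpowers {j d : G} (h : j * d * j⁻¹ ∈ Subgroup.zpowers d) : Nrm j (Subgroup.zpowers d) := by
  have hle : Subgroup.zpowers d ≤ (Subgroup.zpowers d).comap (MulAut.conj j).toMonoidHom := by
    rw [Subgroup.zpowers_le]
    exact h
  intro w hw
  exact hle hw

theorem comm_of_mem_zpowers {y w u : G} (h : y * w = w * y) (hu : u ∈ Subgroup.zpowers w) : y * u = u * y := by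
  have hle : Subgroup.zpowers w ≤ Subgroup.centralizer ({y} : Set G) := by
    rw [Subgroup.zpowers_le, Subgroup.mem_centralizer_singleton_iff]
    exact h.symm
  exact (Subgroup.mem_centralizer_singleton_iff.1 (hle hu)).symm

theorem mem_cen {B : Subgroup G} {x : G} : x ∈ Subgroup.centralizer (B : Set G) ↔ ∀ k ∈ B, x * k = k * x := by
  rw [Subgroup.mem_centralizer_iff]
  exact ⟨fun h k hk => (h k hk).symm, fun h k hk => (h k hk).symm⟩

theorem cen_conj {B : Subgroup G} {j c : G} (hj : Nrm j⁻¹ B) (hc : ∀ k ∈ B, c * k = k * c) :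
    ∀ k ∈ B, (j * c * j⁻¹) * k = k * (j * c * j⁻¹) := by
  intro k hk
  have h1 := hc _ (hj k hk)
  simp only [inv_inv] at h1
  calc j * c * j⁻¹ * k = j * (c * (j⁻¹ * k * j)) * j⁻¹ := by group
    _ = j * ((j⁻¹ * k * j) * c) * j⁻¹ := by rw [h1]
    _ = k * (j * c * j⁻¹) := by group

theorem eq_one_of_mem_p_q [Finite G] {p q : ℕ} [Fact p.Prime] [Fact q.Prime] (hpq : p ≠ q) {P Q : Subgroup G}
    (hP : IsPGroup p P) (hQ : IsPGroup q Q) {c : G} (hcP : c ∈ P) (hcQ : c ∈ Q) : c = 1 := by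
  have h1 := Subgroup.orderOf_dvd_natCard P hcP
  have h2 := Subgroup.orderOf_dvd_natCard Q hcQ
  exact orderOf_eq_one_iff.mp (Nat.eq_one_of_dvd_coprimes (cop_p hpq hP hQ) h1 h2)

theorem not_dvd_of_isP [Finite G] {p q : ℕ} [hp : Fact p.Prime] (hq : q.Prime) (hqp : q ≠ p) {P : Subgroup G}
    (hP : IsPGroup p P) : ¬ q ∣ Nat.card P := by
  intro hd
  obtain ⟨k, hk⟩ := IsPGroup.iff_card.mp hP
  rw [hk] at hd
  exact hqp ((Nat.prime_dvd_prime_iff_eq hq hp.out).1 (hq.dvd_of_dvd_pow hd))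

theorem isP_of_primes [Finite G] {p : ℕ} [hp : Fact p.Prime] {P : Subgroup G}
    (h : ∀ q : ℕ, q.Prime → q ∣ Nat.card P → q = p) : IsPGroup p P := by
  rw [IsPGroup.iff_card]
  exact ⟨_, Nat.eq_prime_pow_of_unique_prime_dvd Nat.card_pos.ne' (fun {q} hq hd => h q hq hd)⟩

theorem mem_zpowers_mul {a b : ℕ} [Fact a.Prime] [Fact b.Prime] (hab : a ≠ b) {u w : G} (hu : orderOf u = a)
    (hw : orderOf w = b) (hc : u * w = w * u) : u ∈ Subgroup.zpowers (u * w) := by
  have hwb : w ^ b = 1 := by rw [← hw]; exact pow_orderOf_eq_one w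
  have h1 : (u * w) ^ b = u ^ b := by
    rw [(show Commute u w from hc).mul_pow, hwb, mul_one]
  have h2 : u ^ b ≠ 1 := by
    intro h4
    have h5 := orderOf_dvd_of_pow_eq_one h4
    rw [hu] at h5
    exact hab ((Nat.prime_dvd_prime_iff_eq Fact.out Fact.out).1 h5)
  have h3 : u ∈ Subgroup.zpowers (u ^ b) := mem_zpowers_of_mem_zpowers hu (Subgroup.npow_mem_zpowers u b) h2
  rw [← h1] at h3
  exact (Subgroup.zpowers_le.2 (Subgroup.npow_mem_zpowers (u * w) b)) h3

/-- A `p`-core inside a subgroup. -/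
def coreIn (p : ℕ) (J : Subgroup G) : Subgroup G := (pCore p ↥J).map J.subtype

theorem coreIn_le (p : ℕ) (J : Subgroup G) : coreIn p J ≤ J := Subgroup.map_subtype_le _

theorem coreIn_isP [Finite G] (p : ℕ) [Fact p.Prime] (J : Subgroup G) : IsPGroup p (coreIn p J) :=
  (isPGroup_pCore p).map J.subtype

theorem coreIn_nrm (p : ℕ) (J : Subgroup G) {j : G} (hj : j ∈ J) : Nrm j (coreIn p J) := by
  rintro _ ⟨x, hx, rfl⟩
  refine ⟨⟨j, hj⟩ * x * ⟨j, hj⟩⁻¹, ?_, by simp⟩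
  exact (pCore_normal p ↥J).conj_mem x hx _

theorem le_coreIn [Finite G] {p : ℕ} {J P : Subgroup G} (hPJ : P ≤ J) (hP : IsPGroup p P) (hn : ∀ j ∈ J, Nrm j P) :
    P ≤ coreIn p J := by
  have hN : (P.subgroupOf J).Normal := by
    refine ⟨fun x hx g => ?_⟩
    rw [Subgroup.mem_subgroupOf] at hx ⊢
    exact hn g g.2 x hx
  have hp : IsPGroup p (P.subgroupOf J) := IsPGroup.comap_of_injective hP J.subtype J.subtype_injective
  have h := le_pCore hN hp
  intro x hx
  exact ⟨⟨x, hPJ hx⟩, h (Subgroup.mem_subgroupOf.2 hx), rfl⟩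

/-- `C_J(O_a(J)) ≤ O_a(J)` if `O_b(J) = 1` and `J` is a `{a,b}`-group. -/
theorem coreIn_fit [Finite G] {a b : ℕ} [Fact a.Prime] [Fact b.Prime] {J : Subgroup G} (hJ : Group.IsSolvable J)
    (hprimes : ∀ q : ℕ, q.Prime → q ∣ Nat.card J → q = a ∨ q = b) (hb : coreIn b J = ⊥) {x : G} (hx : x ∈ J)
    (hc : ∀ k ∈ coreIn a J, x * k = k * x) : x ∈ coreIn a J := by
  haveI := hJ
  have hbot : pPrimeCore a ↥J = ⊥ := by
    have h1 : pCore b ↥J = ⊥ := (Subgroup.map_eq_bot_iff_of_injective _ J.subtype_injective).1 hb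
    have h2 : IsPGroup b (pPrimeCore a ↥J) := by
      rw [IsPGroup.iff_card]
      refine ⟨_, Nat.eq_prime_pow_of_unique_prime_dvd Nat.card_pos.ne' (fun {q} hq hd => ?_)⟩
      have hd2 : q ∣ Nat.card J := hd.trans (Subgroup.card_subgroup_dvd_card _)
      rcases hprimes q hq hd2 with rfl | rfl
      · exact absurd hd (not_dvd_card_pPrimeCore q)
      · rfl
    rw [← le_bot_iff, ← h1]
    exact le_pCore inferInstance h2
  have h := centralizer_pCore_le a hbot (x := ⟨x, hx⟩) ?_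
  · exact ⟨⟨x, hx⟩, h, rfl⟩
  · rw [Subgroup.mem_centralizer_iff]
    intro k hk
    apply Subtype.ext
    have := hc k ⟨k, hk, rfl⟩
    exact this.symm

/-- The data of Lemma M. -/
structure MData (σ : Finset ℕ) (t r a b : ℕ) (H V B Et Ea Eb : Subgroup G) : Prop where
  hNT : NoT σ G
  ht : t ∈ σ
  hr : r ∈ σ
  ha : a ∈ σ
  hb : b ∈ σ
  tr : t ≠ r
  ta : t ≠ a
  tb : t ≠ b
  ra : r ≠ a
  rb : r ≠ b
  ab : a ≠ b
  hHsol : Group.IsSolvable H
  hV : IsPGroup r V
  hVab : ∀ x ∈ V, ∀ y ∈ V, x * y = y * x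
  hVne : V ≠ ⊥
  hHV : ∀ h ∈ H, Nrm h V
  hBH : B ≤ H
  hB : IsPGroup t B
  hHB : ∀ h ∈ H, Nrm h B
  hEt : IsE2 t Et
  hEtB : Et ≤ B
  hEa : IsE2 a Ea
  hEaH : Ea ≤ H
  hEb : IsE2 b Eb
  hEbH : Eb ≤ H
  hP : ∀ x ∈ H, ∀ y ∈ H, orderOf x = a → orderOf y = b → x * y = y * x →
    (∀ k ∈ B, x * k = k * x) ∨ (∀ k ∈ B, y * k = k * y)

theorem MData.swap {σ : Finset ℕ} {t r a b : ℕ} {H V B Et Ea Eb : Subgroup G} (h : MData σ t r a b H V B Et Ea Eb) :
    MData σ t r b a H V B Et Eb Ea :=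
  { h with
    ha := h.hb, hb := h.ha, ta := h.tb, tb := h.ta, ra := h.rb, rb := h.ra, ab := h.ab.symm,
    hEa := h.hEb, hEaH := h.hEbH, hEb := h.hEa, hEbH := h.hEaH,
    hP := fun x hx y hy h1 h2 h3 => (h.hP y hy x hx h2 h1 h3.symm).symm }

section MLemma

variable [Finite G] {σ : Finset ℕ} {t r a b : ℕ} [Fact t.Prime] [Fact r.Prime] [Fact a.Prime] [Fact b.Prime]
  {H V B Et Ea Eb : Subgroup G}

/-- Step (b). -/
theorem MData.step_b (h : MData σ t r a b H V B Et Ea Eb) {q : ℕ} (hq : q ∈ σ) (hqt : q ≠ t) (hqr : q ≠ r) {g : G}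
    (hgH : g ∈ H) (hgc : ∀ k ∈ B, g * k = k * g) (hgo : orderOf g = q) : Fpf g V := by
  intro v hv hc
  by_contra hv1
  set W := V ⊓ Subgroup.centralizer ({g} : Set G) with hWdef
  have hW : W ≠ ⊥ := by
    intro hb
    have : v ∈ W := ⟨hv, Subgroup.mem_centralizer_singleton_iff.2 hc.symm⟩
    rw [hb, Subgroup.mem_bot] at this
    exact hv1 this
  have hWq : ¬ t ∣ Nat.card W := not_dvd_of_isP Fact.out h.tr (h.hV.to_le inf_le_left)
  have hN : ∀ e ∈ Et, Nrm e W := fun e he =>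
    nrm_inf_centralizer (h.hHV e (h.hBH (h.hEtB he))) (hgc e (h.hEtB he)).symm
  obtain ⟨e, he, he1, w, hw, hw1, hew⟩ := h.hEt.exists_fix hW hWq hN
  have hgw : w * g = g * w := Subgroup.mem_centralizer_singleton_iff.1 hw.2
  exact h.hNT.elim_p hq h.ht h.hr hqt h.tr hqr h.hV hw.1 hw1 hgo (h.hEt.order he he1)
    (hgc e (h.hEtB he)) hew hgw.symm

/-- Step (c). -/
theorem MData.step_c (h : MData σ t r a b H V B Et Ea Eb) {x y : G} (hxH : x ∈ H) (hyH : y ∈ H) (hxo : orderOf x = a)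
    (hyo : orderOf y = b) (hxc : ∀ k ∈ B, x * k = k * x) (hyc : ∀ k ∈ B, y * k = k * y) : False := by
  set D := H ⊓ Subgroup.centralizer (B : Set G) with hD
  have hDsol : Group.IsSolvable D := solv_le inf_le_left h.hHsol
  have hxD : x ∈ D := ⟨hxH, mem_cen.2 hxc⟩
  have hyD : y ∈ D := ⟨hyH, mem_cen.2 hyc⟩
  have haD : a ∣ Nat.card D := by rw [← hxo]; exact Subgroup.orderOf_dvd_natCard D hxD
  have hbD : b ∣ Nat.card D := by rw [← hyo]; exact Subgroup.orderOf_dvd_natCard D hyD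
  obtain ⟨L, hL⟩ := exists_isHallIn (fun q => q = a ∨ q = b) D hDsol
  have hLsol := solv_le hL.le hDsol
  have hcop : (Nat.card V).Coprime (Nat.card L) := by
    refine Nat.coprime_of_dvd ?_
    intro q hq h1 h2
    rcases hL.primes q hq h2 with rfl | rfl
    · exact not_dvd_of_isP hq h.ra.symm h.hV h1
    · exact not_dvd_of_isP hq h.rb.symm h.hV h1
  rcases lemma_G (Fact.out : a.Prime) (Fact.out : b.Prime) hLsol hL.primes (hL.dvd Fact.out (Or.inl rfl) haD)
      (hL.dvd Fact.out (Or.inr rfl) hbD) h.hVne h.hVab (fun l hl => h.hHV l (hL.le hl).1) hcop with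
    ⟨x', hx', y', hy', h1, h2, h3⟩ | ⟨g, hg, h1, w, hw, hw1, hc⟩
  · obtain ⟨e, he, he1⟩ := h.hEt.exists_ne
    have hx'c := mem_cen.1 (hL.le hx').2 e (h.hEtB he)
    have hy'c := mem_cen.1 (hL.le hy').2 e (h.hEtB he)
    exact h.hNT.elim3 h.ha h.hb h.ht h.ab h.tb.symm h.ta.symm h1 h2 (h.hEt.order he he1) h3 hy'c hx'c
  · have hgc := mem_cen.1 (hL.le hg).2
    rcases h1 with h1 | h1
    · exact hw1 (h.step_b h.ha h.ta.symm h.ra.symm (hL.le hg).1 hgc h1 w hw hc)
    · exact hw1 (h.step_b h.hb h.tb.symm h.rb.symm (hL.le hg).1 hgc h1 w hw hc)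

theorem MData.core₂ (h : MData σ t r a b H V B Et Ea Eb) {J : Subgroup G} (hJ : IsHallIn (fun q => q = a ∨ q = b) J H)
    {ya yb : G} (hyaJ : ya ∈ J) (hybJ : yb ∈ J) (oa : orderOf ya = a) (ob : orderOf yb = b) (hc : ya * yb = yb * ya)
    (hyaB : ∀ k ∈ B, ya * k = k * ya) (hnob : ∀ y ∈ H, orderOf y = b → ¬ ∀ k ∈ B, y * k = k * y) : False := by
  have hJH := hJ.le
  have hJsol := solv_le hJH h.hHsol
  have haP : a.Prime := Fact.out
  have hbP : b.Prime := Fact.out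
  have hNB : ∀ j ∈ H, Nrm j⁻¹ B := fun j hj => h.hHB _ (H.inv_mem hj)
  let Da : Subgroup G := J ⊓ Subgroup.centralizer (B : Set G)
  have hDap : IsPGroup a Da := by
    refine isP_of_primes ?_
    intro q hq hd
    rcases hJ.primes q hq (hd.trans (Subgroup.card_dvd_of_le inf_le_left)) with rfl | rfl
    · rfl
    · exfalso
      obtain ⟨x, hx, hxo⟩ := exists_order hq hd
      exact hnob x (hJH hx.1) hxo (mem_cen.1 hx.2)
  have hyaDa : ya ∈ Da := ⟨hyaJ, mem_cen.2 hyaB⟩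
  have hDane : Da ≠ ⊥ := by
    intro hb
    have := hyaDa
    rw [hb, Subgroup.mem_bot] at this
    rw [this, orderOf_one] at oa
    exact haP.one_lt.ne oa
  have hfpf : ∀ x ∈ Da, orderOf x = a → Fpf x V := fun x hx hxo =>
    h.step_b h.ha h.ta.symm h.ra.symm (hJH hx.1) (mem_cen.1 hx.2) hxo
  have hDano : ∀ x ∈ Da, ∀ y ∈ Da, orderOf x = a → orderOf y = a → x * y = y * x → y ∈ Subgroup.zpowers x := by
    intro x hx y hy hxo hyo hxy
    by_contra hne
    have hE := isE2_of_pair hxo hyo hxy hne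
    have hle : Subgroup.zpowers x ⊔ Subgroup.zpowers y ≤ Da :=
      sup_le (Subgroup.zpowers_le.2 hx) (Subgroup.zpowers_le.2 hy)
    obtain ⟨e, he, he1, w, hw, hw1, hew⟩ := hE.exists_fix h.hVne (not_dvd_of_isP haP h.ra.symm h.hV)
      (fun e he => h.hHV e (hJH (hle he).1))
    exact hw1 (hfpf e (hle he) (hE.order he he1) w hw hew)
  obtain ⟨z, hzDa, hz, hzc⟩ := exists_central_order hDap hDane
  have hyaz : ya ∈ Subgroup.zpowers z := hDano z hzDa ya hyaDa hz oa (hzc ya hyaDa)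
  have hya1 : ya ≠ 1 := by
    intro h1
    rw [h1, orderOf_one] at oa
    exact haP.one_lt.ne oa
  have hzya : z ∈ Subgroup.zpowers ya := mem_zpowers_of_mem_zpowers hz hyaz hya1
  have hA : ∀ x ∈ Da, orderOf x = a → x ∈ Subgroup.zpowers ya := by
    intro x hx hxo
    have h1 := hDano z hzDa x hx hz hxo (hzc x hx)
    exact (Subgroup.zpowers_le.2 hzya) h1
  have hcnj : ∀ j ∈ J, ∀ c ∈ Da, j * c * j⁻¹ ∈ Da := by
    intro j hj c hc
    refine ⟨J.mul_mem (J.mul_mem hj hc.1) (J.inv_mem hj), mem_cen.2 ?_⟩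
    exact cen_conj (hNB j (hJH hj)) (mem_cen.1 hc.2)
  have hnA : ∀ j ∈ J, Nrm j (Subgroup.zpowers ya) := by
    intro j hj
    exact nrm_zpowers (hA _ (hcnj j hj ya hyaDa) ((orderOf_conj' j ya).trans oa))
  have hcardA : Nat.card (Subgroup.zpowers ya) = a := by rw [Nat.card_zpowers, oa]
  have hBne : B ≠ ⊥ := by
    obtain ⟨e, he, he1⟩ := h.hEt.exists_ne
    intro hb
    have := h.hEtB he
    rw [hb, Subgroup.mem_bot] at this
    exact he1 this
  have T1 : ∀ y ∈ H, ∀ y' ∈ H, orderOf y = b → orderOf y' = b → y * y' = y' * y → y * ya = ya * y → y' * ya = ya * y' →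
      y' ∈ Subgroup.zpowers y := by
    intro y hy y' hy' hyo hyo' hyy h1 h2
    by_contra hne
    have hE := isE2_of_pair hyo hyo' hyy hne
    have hle : Subgroup.zpowers y ⊔ Subgroup.zpowers y' ≤ H ⊓ Subgroup.centralizer ({ya} : Set G) := by
      refine sup_le (Subgroup.zpowers_le.2 ⟨hy, ?_⟩) (Subgroup.zpowers_le.2 ⟨hy', ?_⟩)
      · exact Subgroup.mem_centralizer_singleton_iff.2 h1
      · exact Subgroup.mem_centralizer_singleton_iff.2 h2
    obtain ⟨e, he, he1, k, hk, hk1, hek⟩ := hE.exists_fix hBne (not_dvd_of_isP hbP h.tb.symm h.hB)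
      (fun e he => h.hHB e (hle he).1)
    have hey : e * ya = ya * e := Subgroup.mem_centralizer_singleton_iff.1 (hle he).2
    exact h.hNT.elim_p h.ha h.hb h.ht h.ab h.tb.symm h.ta.symm h.hB hk hk1 oa (hE.order he he1) hey.symm hek (hyaB k hk)
  -- the conjugate of `Eb` inside `J`
  obtain ⟨g, hgH, hg⟩ := hJ.conj h.hHsol h.hEbH (fun q hq hd => Or.inr (by
    by_contra hne
    exact not_dvd_of_isP hq hne h.hEb.isPGroup hd))
  set E' := Eb.map (MulAut.conj g).toMonoidHom with hE'def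
  have hE' : IsE2 b E' := h.hEb.conj g
  have hE'J : E' ≤ J := by
    rintro _ ⟨k, hk, rfl⟩
    exact hg k hk
  obtain ⟨y', hy'E, hy'1, w, hw, hw1, hy'w⟩ := hE'.exists_fix (W := Subgroup.zpowers ya)
    (by
      intro hb
      rw [hb, Subgroup.card_bot] at hcardA
      exact haP.one_lt.ne hcardA)
    (by
      rw [hcardA]
      intro hd
      exact h.ab ((Nat.prime_dvd_prime_iff_eq hbP haP).1 hd).symm)
    (fun e he => hnA e (hE'J he))
  have hy'ya : y' * ya = ya * y' := comm_of_mem_zpowers hy'w (mem_zpowers_of_mem_zpowers oa hw hw1)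
  have hy'o := hE'.order hy'E hy'1
  have hfix : ∀ f ∈ E', f ≠ 1 → f * ya = ya * f → f ∈ Subgroup.zpowers y' := by
    intro f hf hf1 hfc
    exact T1 y' (hJH (hE'J hy'E)) f (hJH (hE'J hf)) hy'o (hE'.order hf hf1) (hE'.1 _ hy'E _ hf) hy'ya hfc
  have hmove : ∃ f ∈ E', f ≠ 1 ∧ f * ya ≠ ya * f := by
    by_contra hcon
    push Not at hcon
    have hle : E' ≤ Subgroup.zpowers y' := by
      intro f hf
      by_cases hf1 : f = 1
      · rw [hf1]; exact Subgroup.one_mem _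
      · exact hfix f hf hf1 (hcon f hf hf1)
    have h1 := Subgroup.card_le_of_le hle
    rw [Nat.card_zpowers, hy'o] at h1
    have h2 := hE'.2.2
    have h3 := hbP.two_le
    nlinarith
  obtain ⟨f, hfE, hf1, hfm⟩ := hmove
  have hfo := hE'.order hfE hf1
  have hba : b ∣ a - 1 := (aut_prime hbP haP oa (hE'.2.1 f hfE) (hnA f (hE'J hfE) ya (Subgroup.mem_zpowers ya))).resolve_left hfm
  have hnab : ¬ a ∣ b - 1 := by
    intro hd
    have h1 := Nat.le_of_dvd (by have := hbP.two_le; omega) hd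
    have h2 := Nat.le_of_dvd (by have := haP.two_le; omega) hba
    have h3 := haP.two_le
    have h4 := hbP.two_le
    omega
  -- `O_a(J)`
  have hP0fix : ∀ f ∈ E', f * ya ≠ ya * f → ∀ x ∈ coreIn a J, f * x = x * f → x = 1 := by
    intro f hfE hfm x hx hfx
    by_contra hx1
    obtain ⟨m, hm⟩ := exists_pow_order (coreIn_isP a J) hx hx1
    have hf1 : f ≠ 1 := by
      rintro rfl
      simp at hfm
    have hfo := hE'.order hfE hf1
    have hxm : x ^ m ∈ J := coreIn_le a J ((coreIn a J).pow_mem hx m)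
    have hcm : x ^ m * f = f * x ^ m := (((show Commute f x from hfx).pow_right m).eq).symm
    rcases h.hP _ (hJH hxm) f (hJH (hE'J hfE)) hm hfo hcm with h1 | h1
    · have h2 := hA _ ⟨hxm, mem_cen.2 h1⟩ hm
      have hxm1 : x ^ m ≠ 1 := by
        intro h3
        rw [h3, orderOf_one] at hm
        exact haP.one_lt.ne hm
      have h3 := mem_zpowers_of_mem_zpowers oa h2 hxm1
      exact hfm (comm_of_mem_zpowers hcm.symm h3)
    · exact hnob f (hJH (hE'J hfE)) hfo h1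
  have hy'P0 : coreIn a J ≤ Subgroup.centralizer ({y'} : Set G) := by
    refine hE'.le_of_fix (not_dvd_of_isP hbP h.ab.symm (coreIn_isP a J)) (fun e he => coreIn_nrm a J (hE'J he)) ?_
    intro e he he1 w hw hew
    rw [Subgroup.mem_centralizer_singleton_iff]
    by_cases hey : e * ya = ya * e
    · have h1 := hfix e he he1 hey
      have h2 := mem_zpowers_of_mem_zpowers hy'o h1 he1
      exact comm_of_mem_zpowers hew.symm h2
    · rw [hP0fix e he hey w hw hew]
      simp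
  have hQ0ne : coreIn b J ≠ ⊥ := by
    intro hbot
    have h1 : y' ∈ coreIn a J := coreIn_fit hJsol hJ.primes hbot (hE'J hy'E) (fun k hk =>
      (Subgroup.mem_centralizer_singleton_iff.1 (hy'P0 hk)).symm)
    have h2 := Subgroup.orderOf_dvd_natCard _ h1
    rw [hy'o] at h2
    exact not_dvd_of_isP hbP h.ab.symm (coreIn_isP a J) h2
  have hB0ya : ∀ x ∈ coreIn b J, x * ya = ya * x := by
    intro x hx
    have hxJ := coreIn_le b J hx
    have h1 : x * ya * x⁻¹ * ya⁻¹ ∈ Subgroup.zpowers ya :=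
      Subgroup.mul_mem _ (hnA x hxJ ya (Subgroup.mem_zpowers ya)) (Subgroup.inv_mem _ (Subgroup.mem_zpowers ya))
    have h2 : x * ya * x⁻¹ * ya⁻¹ ∈ coreIn b J := by
      have h3 : x * ya * x⁻¹ * ya⁻¹ = x * (ya * x⁻¹ * ya⁻¹) := by group
      rw [h3]
      exact Subgroup.mul_mem _ hx (coreIn_nrm b J hyaJ _ (Subgroup.inv_mem _ hx))
    have hpz : IsPGroup a (Subgroup.zpowers ya) := by
      refine isP_of_primes ?_
      intro q hq hd
      rw [hcardA] at hd
      exact (Nat.prime_dvd_prime_iff_eq hq haP).1 hd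
    have h3 := eq_one_of_mem_p_q h.ab hpz (coreIn_isP b J) h1 h2
    exact comm_of_comm_one h3
  obtain ⟨d₀, hd₀, hd₀o, hd₀c⟩ := exists_central_order (coreIn_isP b J) hQ0ne
  have hB0uni : ∀ x ∈ coreIn b J, orderOf x = b → x ∈ Subgroup.zpowers d₀ := by
    intro x hx hxo
    exact T1 d₀ (hJH (coreIn_le b J hd₀)) x (hJH (coreIn_le b J hx)) hd₀o hxo (hd₀c x hx) (hB0ya d₀ hd₀) (hB0ya x hx)
  have hnd : ∀ j ∈ J, j * d₀ * j⁻¹ ∈ Subgroup.zpowers d₀ := by
    intro j hj
    exact hB0uni _ (coreIn_nrm b J hj _ hd₀) ((orderOf_conj' j d₀).trans hd₀o)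
  have hall : ∀ x ∈ J, orderOf x = a → x ∈ Subgroup.zpowers ya := by
    intro x hx hxo
    have hxa : x ^ a = 1 := by rw [← hxo]; exact pow_orderOf_eq_one x
    have h1 := (aut_prime haP hbP hd₀o hxa (hnd x hx)).resolve_right hnab
    rcases h.hP x (hJH hx) d₀ (hJH (coreIn_le b J hd₀)) hxo hd₀o h1 with h2 | h2
    · exact hA x ⟨hx, mem_cen.2 h2⟩ hxo
    · exact absurd h2 (hnob d₀ (hJH (coreIn_le b J hd₀)) hd₀o)
  -- final contradiction with `Ea`
  obtain ⟨g', hg'H, hg'⟩ := hJ.conj h.hHsol h.hEaH (fun q hq hd => Or.inl (by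
    by_contra hne
    exact not_dvd_of_isP hq hne h.hEa.isPGroup hd))
  have hE'' : IsE2 a (Ea.map (MulAut.conj g').toMonoidHom) := h.hEa.conj g'
  have hle : Ea.map (MulAut.conj g').toMonoidHom ≤ Subgroup.zpowers ya := by
    intro u hu
    by_cases hu1 : u = 1
    · rw [hu1]; exact Subgroup.one_mem _
    · obtain ⟨k, hk, rfl⟩ := hu
      exact hall _ (hg' k hk) (hE''.order ⟨k, hk, rfl⟩ hu1)
  have h1 := Subgroup.card_le_of_le hle
  rw [hcardA] at h1
  have h2 := hE''.2.2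
  have h3 := haP.two_le
  nlinarith

theorem MData.core (h : MData σ t r a b H V B Et Ea Eb) {ya yb : G} (hyaH : ya ∈ H) (hybH : yb ∈ H) (oa : orderOf ya = a)
    (ob : orderOf yb = b) (hc : ya * yb = yb * ya) (hyaB : ∀ k ∈ B, ya * k = k * ya) : False := by
  have hnob : ∀ y ∈ H, orderOf y = b → ¬ ∀ k ∈ B, y * k = k * y := fun y hy hyo hyc =>
    h.step_c hyaH hy oa hyo hyaB hyc
  obtain ⟨J, hJ⟩ := exists_isHallIn (fun q => q = a ∨ q = b) H h.hHsol
  have hcop : (orderOf ya).Coprime (orderOf yb) := by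
    rw [oa, ob]
    exact (Nat.coprime_primes Fact.out Fact.out).2 h.ab
  have hord : orderOf (ya * yb) = a * b := by
    rw [(show Commute ya yb from hc).orderOf_mul_eq_mul_orderOf_of_coprime hcop, oa, ob]
  have hle : Subgroup.zpowers (ya * yb) ≤ H := Subgroup.zpowers_le.2 (H.mul_mem hyaH hybH)
  obtain ⟨g, hgH, hg⟩ := hJ.conj h.hHsol hle (fun q hq hd => by
    rw [Nat.card_zpowers, hord] at hd
    rcases hq.dvd_mul.mp hd with h1 | h1
    · exact Or.inl ((Nat.prime_dvd_prime_iff_eq hq Fact.out).1 h1)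
    · exact Or.inr ((Nat.prime_dvd_prime_iff_eq hq Fact.out).1 h1))
  have h1 := hg ya (mem_zpowers_mul h.ab oa ob hc)
  have h2 := hg yb (by
    have := mem_zpowers_mul h.ab.symm ob oa hc.symm
    rwa [← hc] at this)
  refine h.core₂ hJ h1 h2 ((orderOf_conj' g ya).trans oa) ((orderOf_conj' g yb).trans ob) ?_
    (cen_conj (h.hHB _ (H.inv_mem hgH)) hyaB) hnob
  calc g * ya * g⁻¹ * (g * yb * g⁻¹) = g * (ya * yb) * g⁻¹ := by group
    _ = g * (yb * ya) * g⁻¹ := by rw [hc]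
    _ = g * yb * g⁻¹ * (g * ya * g⁻¹) := by group

/-- **Lemma M.** -/
theorem MData.main (h : MData σ t r a b H V B Et Ea Eb) {ya yb : G} (hyaH : ya ∈ H) (hybH : yb ∈ H) (oa : orderOf ya = a)
    (ob : orderOf yb = b) (hc : ya * yb = yb * ya) : False := by
  rcases h.hP ya hyaH yb hybH oa ob hc with h1 | h1
  · exact h.core hyaH hybH oa ob hc h1
  · exact h.swap.core hybH hyaH ob oa hc.symm h1

end MLemma

end Cfsg.Agent.Lib.KFour
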