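import Mathlib
import Cfsg.Agent.Lib.KFourD
import Cfsg.Agent.Lib.OddPGroup

/-!
# The final lemma on groups with cyclic Fitting subgroup of two primes.
-/

set_option autoImplicit false
set_option linter.unusedSectionVars false
set_option linter.style.haveILetI false
set_option linter.unusedVariables false

namespace Cfsg.Agent.Lib.KFour

open Cfsg Cfsg.Agent.Lib.PCore
open scoped Pointwise

variable {G : Type*} [Group G]

theorem aut_comm_cyc {C : Type*} [Group C] [Finite C] [IsCyclic C] (f g : MulAut C) : f * g = g * f := by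
  apply (IsCyclic.mulAutMulEquiv C).injective
  rw [map_mul, map_mul, mul_comm]

theorem final_type {H : Type*} [Group H] [Finite H] [hsol : Group.IsSolvable H] {t e : ℕ} [Fact t.Prime] [Fact e.Prime]
    (hte : t ≠ e) (hTc : IsCyclic (pCore t H)) (hUc : IsCyclic (pCore e H))
    (hothers : ∀ p : ℕ, p.Prime → p ≠ t → p ≠ e → pCore p H = ⊥) (hnd : ¬ e ∣ t - 1) {g : H} (hgo : orderOf g = e) :
    g ∈ pCore e H := by
  classical
  have heP : e.Prime := Fact.out
  have htP : t.Prime := Fact.out
  set T := pCore t H with hT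
  set U := pCore e H with hU
  haveI hTn : T.Normal := pCore_normal t H
  haveI hUn : U.Normal := pCore_normal e H
  have hTp : IsPGroup t T := isPGroup_pCore t
  have hUp : IsPGroup e U := isPGroup_pCore e
  let φT : H →* MulAut T := MulAut.conjNormal
  let φU : H →* MulAut U := MulAut.conjNormal
  have hφT : ∀ (x : H) (k : T), ((φT x k : T) : H) = x * k * x⁻¹ := fun x k => MulAut.conjNormal_apply x k
  have hφU : ∀ (x : H) (k : U), ((φU x k : U) : H) = x * k * x⁻¹ := fun x k => MulAut.conjNormal_apply x k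
  have h1 : ∀ x : H, orderOf x = e → φT x = 1 := by
    intro x hx
    have hx1 : (φT x) ^ e = 1 := by rw [← map_pow, ← hx, pow_orderOf_eq_one, map_one]
    by_contra hne
    have ho : orderOf (φT x) = e := orderOf_eq_prime hx1 hne
    have hd : e ∣ Nat.card (MulAut T) := by rw [← ho]; exact orderOf_dvd_natCard _
    rw [IsCyclic.card_mulAut] at hd
    obtain ⟨k, hk⟩ := IsPGroup.iff_card.mp hTp
    rw [hk] at hd
    rcases k with _ | k
    · simp only [pow_zero, Nat.totient_one, Nat.dvd_one] at hd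
      exact heP.one_lt.ne' hd
    · rw [Nat.totient_prime_pow_succ htP] at hd
      rcases heP.dvd_mul.mp hd with h | h
      · exact hte ((Nat.prime_dvd_prime_iff_eq heP htP).1 (heP.dvd_of_dvd_pow h)).symm
      · exact hnd h
  have hFle : fittingSubgroup H ≤ T ⊔ U := by
    rw [fittingSubgroup_eq_iSup_pCore]
    refine iSup_le fun p => ?_
    by_cases hp1 : (p : ℕ) = t
    · rw [hp1]; exact le_sup_left
    by_cases hp2 : (p : ℕ) = e
    · rw [hp2]; exact le_sup_right
    rw [hothers p p.2 hp1 hp2]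
    exact bot_le
  have h2 : ∀ h : H, h * g * h⁻¹ * g⁻¹ ∈ T ⊔ U := by
    intro h
    set c := h * g * h⁻¹ * g⁻¹ with hc
    have hcT : φT c = 1 := by
      rw [hc, map_mul, map_mul, map_mul, map_inv, map_inv, aut_comm_cyc (φT h) (φT g)]
      group
    have hcU : φU c = 1 := by
      rw [hc, map_mul, map_mul, map_mul, map_inv, map_inv, aut_comm_cyc (φU h) (φU g)]
      group
    have hsc : T ⊔ U ≤ Subgroup.centralizer ({c} : Set H) := by
      refine sup_le ?_ ?_
      · intro k hk
        rw [Subgroup.mem_centralizer_singleton_iff]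
        have h3 := hφT c ⟨k, hk⟩
        rw [hcT] at h3
        have h4 : k = c * k * c⁻¹ := h3
        rw [eq_mul_inv_iff_mul_eq] at h4
        exact h4
      · intro k hk
        rw [Subgroup.mem_centralizer_singleton_iff]
        have h3 := hφU c ⟨k, hk⟩
        rw [hcU] at h3
        have h4 : k = c * k * c⁻¹ := h3
        rw [eq_mul_inv_iff_mul_eq] at h4
        exact h4
    refine hFle (centralizer_fittingSubgroup_le ?_)
    rw [Subgroup.mem_centralizer_iff]
    intro z hz
    exact Subgroup.mem_centralizer_singleton_iff.1 (hsc (hFle hz))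
  let P : Subgroup H := U ⊔ Subgroup.zpowers g
  have hpz : IsPGroup e (Subgroup.zpowers g) := by
    refine isP_of_primes ?_
    intro q hq hd
    rw [Nat.card_zpowers, hgo] at hd
    exact (Nat.prime_dvd_prime_iff_eq hq heP).1 hd
  have hP : IsPGroup e P := IsPGroup.to_sup_of_normal_left hUp hpz
  have hUP : U ≤ P := le_sup_left
  have hgP : g ∈ P := (le_sup_right : Subgroup.zpowers g ≤ P) (Subgroup.mem_zpowers g)
  have hdis : Disjoint T U := by
    rw [Subgroup.disjoint_def]
    intro x hx hx'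
    exact eq_one_of_mem_p_q hte hTp hUp hx hx'
  have hcomm : ∀ x ∈ T, ∀ y ∈ U, x * y = y * x := fun x hx y hy =>
    Subgroup.commute_of_normal_of_disjoint T U hTn hUn hdis x y hx hy
  have h3 : ∀ h : H, h * g * h⁻¹ ∈ P := by
    intro h
    have h4 := h2 h
    rw [Subgroup.mem_sup_of_normal_left] at h4
    obtain ⟨τ, hτ, μ, hμ, hτμ⟩ := h4
    have hg1 : h * g * h⁻¹ = τ * (μ * g) := by
      have : h * g * h⁻¹ = (h * g * h⁻¹ * g⁻¹) * g := by group
      rw [this, ← hτμ]
      group
    have hτg : τ * g = g * τ := by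
      have h5 := hφT g ⟨τ, hτ⟩
      rw [h1 g hgo] at h5
      have h6 : τ = g * τ * g⁻¹ := h5
      rw [eq_mul_inv_iff_mul_eq] at h6
      exact h6
    have hτw : Commute τ (μ * g) := by
      refine Commute.mul_right ?_ ?_
      · exact hcomm τ hτ μ hμ
      · exact hτg
    have hpow : τ ^ e * (μ * g) ^ e = 1 := by
      rw [← hτw.mul_pow, ← hg1]
      have := orderOf_conj' h g
      rw [hgo] at this
      rw [← this]
      exact pow_orderOf_eq_one _
    have hwP : (μ * g) ^ e ∈ P := P.pow_mem (P.mul_mem (hUP hμ) hgP) e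
    have hτe : τ ^ e ∈ P := by
      have : τ ^ e = ((μ * g) ^ e)⁻¹ := eq_inv_of_mul_eq_one_left hpow
      rw [this]
      exact P.inv_mem hwP
    have hτ1 : τ ^ e = 1 := eq_one_of_mem_p_q hte hTp hP (T.pow_mem hτ e) hτe
    have hτ2 : τ = 1 := by
      have h5 := orderOf_dvd_of_pow_eq_one hτ1
      have h6 := Subgroup.orderOf_dvd_natCard T hτ
      have h7 : (Nat.card T).Coprime e := card_isPGroup_coprime hTp heP hte.symm
      exact orderOf_eq_one_iff.mp (Nat.eq_one_of_dvd_coprimes h7 h6 h5)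
    rw [hg1, hτ2, one_mul]
    exact P.mul_mem (hUP hμ) hgP
  have hPn : P.Normal := by
    refine ⟨fun n hn h => ?_⟩
    have hle : P ≤ P.comap (MulAut.conj h).toMonoidHom := by
      refine sup_le ?_ ?_
      · intro u hu
        exact hUP (hUn.conj_mem u hu h)
      · rw [Subgroup.zpowers_le]
        exact h3 h
    exact hle hn
  exact (le_pCore hPn hP) hgP

/-- Rank one `p`-groups, `p` odd, are cyclic. -/
theorem cyc_of_noE2 [Finite G] {t : ℕ} [Fact t.Prime] (ht2 : t ≠ 2) {P : Subgroup G} (hP : IsPGroup t P) (hno : NoE2 t P) :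
    IsCyclic P := by
  by_cases hb : P = ⊥
  · subst hb
    exact isCyclic_of_subsingleton
  obtain ⟨x₀, hx₀, hxo, huniq⟩ := exists_unique_of_noE2 hP hb hno
  refine Cfsg.Agent.Lib.OddPGroup.isCyclic_of_unique ht2 hP ?_
  have hkey : ∀ A : Subgroup P, Nat.card A = t → A = Subgroup.zpowers (⟨x₀, hx₀⟩ : P) := by
    intro A hA
    refine Subgroup.eq_of_le_of_card_ge ?_ ?_
    · intro a ha
      by_cases ha1 : a = 1
      · rw [ha1]; exact Subgroup.one_mem _
      have h1 : a ^ t = 1 := by
        rw [← hA]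
        have := pow_card_eq_one' (G := A) (x := ⟨a, ha⟩)
        exact congrArg Subtype.val this
      have h2 : orderOf a = t := orderOf_eq_prime h1 ha1
      have h3 : orderOf (a : G) = t := by rw [Subgroup.orderOf_coe]; exact h2
      obtain ⟨n, hn⟩ := Subgroup.mem_zpowers_iff.mp (huniq a a.2 h3)
      refine Subgroup.mem_zpowers_iff.mpr ⟨n, ?_⟩
      apply Subtype.ext
      simpa using hn
    · rw [hA, Nat.card_zpowers]
      have : orderOf (⟨x₀, hx₀⟩ : P) = t := by
        rw [Subgroup.orderOf_mk]; exact hxo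
      rw [this]
  intro A B hA hB
  rw [hkey A hA, hkey B hB]

theorem coreIn_cyclic [Finite G] {t : ℕ} [Fact t.Prime] {J : Subgroup G} (h : IsCyclic (coreIn t J)) : IsCyclic (pCore t ↥J) := by
  let e := (pCore t ↥J).equivMapOfInjective J.subtype J.subtype_injective
  haveI : IsCyclic ↥(Subgroup.map J.subtype (pCore t ↥J)) := h
  exact isCyclic_of_surjective e.symm e.symm.surjective

theorem final_half [Finite G] {t e : ℕ} [Fact t.Prime] [Fact e.Prime] (hte : t ≠ e) (ht2 : t ≠ 2) (he2 : e ≠ 2) {J Ee : Subgroup G}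
    (hJ : Group.IsSolvable J) (hEe : IsE2 e Ee) (hEeJ : Ee ≤ J) (hNt : NoE2 t (coreIn t J)) (hNe : NoE2 e (coreIn e J))
    (hothers : ∀ p : ℕ, p.Prime → p ≠ t → p ≠ e → coreIn p J = ⊥) (hnd : ¬ e ∣ t - 1) : False := by
  haveI := hJ
  have hTc := coreIn_cyclic (cyc_of_noE2 ht2 (coreIn_isP t J) hNt)
  have hUc := coreIn_cyclic (cyc_of_noE2 he2 (coreIn_isP e J) hNe)
  have hoth : ∀ p : ℕ, p.Prime → p ≠ t → p ≠ e → pCore p ↥J = ⊥ := fun p hp h1 h2 =>
    (Subgroup.map_eq_bot_iff_of_injective _ J.subtype_injective).1 (hothers p hp h1 h2)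
  have hle : Ee ≤ coreIn e J := by
    intro k hk
    by_cases hk1 : k = 1
    · rw [hk1]; exact Subgroup.one_mem _
    have ho : orderOf (⟨k, hEeJ hk⟩ : J) = e := by
      rw [Subgroup.orderOf_mk]; exact hEe.order hk hk1
    exact ⟨_, final_type hte hTc hUc hoth hnd ho, rfl⟩
  obtain ⟨e₀, he₀, he₀1⟩ := hEe.exists_ne
  have hne : coreIn e J ≠ ⊥ := by
    intro hb
    have := hle he₀
    rw [hb, Subgroup.mem_bot] at this
    exact he₀1 this
  obtain ⟨x₀, hx₀, hxo, huniq⟩ := exists_unique_of_noE2 (coreIn_isP e J) hne hNe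
  have hle2 : Ee ≤ Subgroup.zpowers x₀ := by
    intro k hk
    by_cases hk1 : k = 1
    · rw [hk1]; exact Subgroup.one_mem _
    exact huniq k (hle hk) (hEe.order hk hk1)
  have h1 := Subgroup.card_le_of_le hle2
  rw [Nat.card_zpowers, hxo] at h1
  have h2 := hEe.2.2
  have h3 := (Fact.out : e.Prime).two_le
  nlinarith

/-- The final lemma. -/
theorem final_contra [Finite G] {t e : ℕ} [Fact t.Prime] [Fact e.Prime] (hte : t ≠ e) (ht2 : t ≠ 2) (he2 : e ≠ 2)
    {J Et Ee : Subgroup G} (hJ : Group.IsSolvable J) (hEt : IsE2 t Et) (hEtJ : Et ≤ J) (hEe : IsE2 e Ee) (hEeJ : Ee ≤ J)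
    (hNt : NoE2 t (coreIn t J)) (hNe : NoE2 e (coreIn e J))
    (hothers : ∀ p : ℕ, p.Prime → p ≠ t → p ≠ e → coreIn p J = ⊥) : False := by
  by_cases hnd : e ∣ t - 1
  · refine final_half hte.symm he2 ht2 hJ hEt hEtJ hNe hNt (fun p hp h1 h2 => hothers p hp h2 h1) ?_
    intro hd
    have h1 := Nat.le_of_dvd (by have := (Fact.out : e.Prime).two_le; omega) hd
    have h2 := Nat.le_of_dvd (by have := (Fact.out : t.Prime).two_le; omega) hnd
    have h3 := (Fact.out : t.Prime).two_le
    have h4 := (Fact.out : e.Prime).two_le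
    omega
  · exact final_half hte ht2 he2 hJ hEe hEeJ hNt hNe hothers hnd

end Cfsg.Agent.Lib.KFour
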