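import Mathlib
import Cfsg.Agent.Lib.KFourE

/-!
# The two cases: one prime or two primes in the Fitting subgroup.
-/

set_option autoImplicit false
set_option linter.unusedSectionVars false
set_option linter.style.haveILetI false
set_option linter.unusedVariables false

namespace Cfsg.Agent.Lib.KFour

open Cfsg Cfsg.Agent.Lib.PCore
open scoped Pointwise

variable {G : Type*} [Group G]

theorem exists_coreIn_ne_bot [Finite G] (L : Subgroup G) (hL : Group.IsSolvable L) (hne : L ≠ ⊥) :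
    ∃ p : ℕ, p.Prime ∧ coreIn p L ≠ ⊥ := by
  haveI := hL
  haveI : Nontrivial L := (Subgroup.nontrivial_iff_ne_bot L).2 hne
  obtain ⟨p, hp, hne'⟩ := exists_pCore_ne_bot (G := L)
  refine ⟨p, hp, ?_⟩
  intro h
  exact hne' ((Subgroup.map_eq_bot_iff_of_injective _ L.subtype_injective).1 h)

theorem dvd_of_coreIn_ne_bot [Finite G] {p : ℕ} [Fact p.Prime] {L : Subgroup G} (h : coreIn p L ≠ ⊥) : p ∣ Nat.card L := by
  obtain ⟨x, hx, hxo⟩ := exists_order_of_isPGroup (coreIn_isP p L) h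
  rw [← hxo]
  exact Subgroup.orderOf_dvd_natCard L (coreIn_le p L hx)

theorem coreIn_eq_bot_of_primes [Finite G] {p : ℕ} (hp : p.Prime) {L : Subgroup G} (h : ¬ p ∣ Nat.card L) : coreIn p L = ⊥ := by
  haveI : Fact p.Prime := ⟨hp⟩
  by_contra hne
  exact h (dvd_of_coreIn_ne_bot hne)

theorem coreIn_nrm_ext [Finite G] (p : ℕ) [Fact p.Prime] {N : Subgroup G} {j : G} (hj : Nrm j N) (hj' : Nrm j⁻¹ N) :
    Nrm j (coreIn p N) := by
  have hle : (coreIn p N).map (MulAut.conj j).toMonoidHom ≤ coreIn p N := by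
    refine le_coreIn ?_ ((coreIn_isP p N).map _) ?_
    · rintro _ ⟨x, hx, rfl⟩
      exact hj x (coreIn_le p N hx)
    · rintro n hn _ ⟨x, hx, rfl⟩
      have h1 := coreIn_nrm p N (j := j⁻¹ * n * j⁻¹⁻¹) (hj' n hn) x hx
      refine ⟨_, h1, ?_⟩
      simp only [MulEquiv.coe_toMonoidHom, MulAut.conj_apply, inv_inv]
      group
  intro x hx
  exact hle ⟨x, hx, rfl⟩

theorem coreIn_comm [Finite G] {p q : ℕ} [Fact p.Prime] [Fact q.Prime] (hpq : p ≠ q) {J : Subgroup G} {x y : G}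
    (hx : x ∈ coreIn p J) (hy : y ∈ coreIn q J) : x * y = y * x := by
  have hxJ := coreIn_le p J hx
  have hyJ := coreIn_le q J hy
  have h1 : x * y * x⁻¹ * y⁻¹ ∈ coreIn q J :=
    Subgroup.mul_mem _ (coreIn_nrm q J hxJ y hy) (Subgroup.inv_mem _ hy)
  have h2 : x * y * x⁻¹ * y⁻¹ ∈ coreIn p J := by
    have h3 : x * y * x⁻¹ * y⁻¹ = x * (y * x⁻¹ * y⁻¹) := by group
    rw [h3]
    exact Subgroup.mul_mem _ hx (coreIn_nrm p J hyJ _ (Subgroup.inv_mem _ hx))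
  exact comm_of_comm_one (eq_one_of_mem_p_q hpq (coreIn_isP p J) (coreIn_isP q J) h2 h1)

/-- A general form of the self-centralizing property. -/
theorem coreIn_fit' [Finite G] {t : ℕ} [Fact t.Prime] {J : Subgroup G} (hJ : Group.IsSolvable J)
    (hoth : ∀ p : ℕ, p.Prime → p ≠ t → coreIn p J = ⊥) {x : G} (hx : x ∈ J)
    (hc : ∀ k ∈ coreIn t J, x * k = k * x) : x ∈ coreIn t J := by
  haveI := hJ
  have hF : fittingSubgroup ↥J ≤ pCore t ↥J := by
    rw [fittingSubgroup_eq_iSup_pCore]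
    refine iSup_le fun p => ?_
    by_cases hp1 : (p : ℕ) = t
    · rw [hp1]
    · have := hoth p p.2 hp1
      rw [(Subgroup.map_eq_bot_iff_of_injective _ J.subtype_injective).1 this]
      exact bot_le
  have h1 : (⟨x, hx⟩ : J) ∈ Subgroup.centralizer (fittingSubgroup ↥J : Set ↥J) := by
    rw [Subgroup.mem_centralizer_iff]
    intro k hk
    apply Subtype.ext
    exact (hc k ⟨k, hF hk, rfl⟩).symm
  exact ⟨_, hF (centralizer_fittingSubgroup_le h1), rfl⟩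

/-- A fixed point free involution inverts. -/
theorem inv_of_fpf {y : G} {W : Subgroup G} (hy2 : y ^ 2 = 1) (hWab : ∀ a ∈ W, ∀ b ∈ W, a * b = b * a) (hyW : Nrm y W)
    (hfp : Fpf y W) {w : G} (hw : w ∈ W) : y * w * y⁻¹ = w⁻¹ := by
  have hyi : y⁻¹ = y := by
    rw [inv_eq_iff_mul_eq_one, ← pow_two, hy2]
  have h1 : w * (y * w * y⁻¹) ∈ W := W.mul_mem hw (hyW w hw)
  have h2 : y * (w * (y * w * y⁻¹)) = (w * (y * w * y⁻¹)) * y := by
    have h3 : y * (w * (y * w * y⁻¹)) = (y * w * y⁻¹) * (y * (y * w * y⁻¹) * y⁻¹) * y := by group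
    have h4 : y * (y * w * y⁻¹) * y⁻¹ = w := by
      have : y * (y * w * y⁻¹) * y⁻¹ = (y * y) * w * (y⁻¹ * y⁻¹) := by group
      rw [this, hyi, ← pow_two, hy2]
      group
    rw [h3, h4, hWab _ (hyW w hw) _ hw]
  have h5 := hfp _ h1 h2
  exact eq_inv_of_mul_eq_one_right h5

theorem zpowers_two {x y : G} (hx : orderOf x = 2) (hy : y ∈ Subgroup.zpowers x) (h1 : y ≠ 1) : y = x := by
  obtain ⟨n, rfl⟩ := Subgroup.mem_zpowers_iff.mp hy
  have hx2 : x ^ 2 = 1 := by rw [← hx]; exact pow_orderOf_eq_one x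
  rcases Int.even_or_odd' n with ⟨m, rfl | rfl⟩
  · exfalso
    apply h1
    rw [zpow_mul]
    have : x ^ (2 : ℤ) = 1 := by exact_mod_cast hx2
    rw [this, one_zpow]
  · rw [zpow_add, zpow_mul]
    have : x ^ (2 : ℤ) = 1 := by exact_mod_cast hx2
    rw [this, one_zpow, one_mul, zpow_one]

/-! ## Two primes in the Fitting subgroup -/

/-- The data in the case of two primes in the Fitting subgroup. -/
structure CData (σ : Finset ℕ) (r s c d : ℕ) (V W J Ec Ed : Subgroup G) : Prop where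
  hNT : NoT σ G
  hr : r ∈ σ
  hs : s ∈ σ
  hc : c ∈ σ
  hd : d ∈ σ
  rs : r ≠ s
  rc : r ≠ c
  rd : r ≠ d
  sc : s ≠ c
  sd : s ≠ d
  cd : c ≠ d
  hV : IsPGroup r V
  hVab : ∀ x ∈ V, ∀ y ∈ V, x * y = y * x
  hVexp : ∀ x ∈ V, x ^ r = 1
  hVne : V ≠ ⊥
  hW : IsPGroup s W
  hWab : ∀ x ∈ W, ∀ y ∈ W, x * y = y * x
  hWexp : ∀ x ∈ W, x ^ s = 1
  hWne : W ≠ ⊥
  hVW : ∀ x ∈ V, ∀ y ∈ W, x * y = y * x
  hJsol : Group.IsSolvable J
  hJV : ∀ x ∈ J, Nrm x V
  hJW : ∀ x ∈ J, Nrm x W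
  hJp : ∀ q : ℕ, q.Prime → q ∣ Nat.card J → q = c ∨ q = d
  hEc : IsE2 c Ec
  hEcJ : Ec ≤ J
  hEd : IsE2 d Ed
  hEdJ : Ed ≤ J
  hfaith : ∀ x ∈ J, (∀ v ∈ V, x * v = v * x) → (∀ v ∈ W, x * v = v * x) → x = 1

theorem CData.swapVW {σ : Finset ℕ} {r s c d : ℕ} {V W J Ec Ed : Subgroup G} (h : CData σ r s c d V W J Ec Ed) :
    CData σ s r c d W V J Ec Ed :=
  { h with
    hr := h.hs, hs := h.hr, rs := h.rs.symm, rc := h.sc, rd := h.sd, sc := h.rc, sd := h.rd, hV := h.hW, hVab := h.hWab,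
    hVexp := h.hWexp, hVne := h.hWne, hW := h.hV, hWab := h.hVab, hWexp := h.hVexp, hWne := h.hVne,
    hVW := fun x hx y hy => (h.hVW y hy x hx).symm, hJV := h.hJW, hJW := h.hJV,
    hfaith := fun x hx h1 h2 => h.hfaith x hx h2 h1 }

theorem CData.swapCD {σ : Finset ℕ} {r s c d : ℕ} {V W J Ec Ed : Subgroup G} (h : CData σ r s c d V W J Ec Ed) :
    CData σ r s d c V W J Ed Ec :=
  { h with
    hc := h.hd, hd := h.hc, rc := h.rd, rd := h.rc, sc := h.sd, sd := h.sc, cd := h.cd.symm,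
    hJp := fun q hq hd => (h.hJp q hq hd).symm, hEc := h.hEd, hEcJ := h.hEdJ, hEd := h.hEc, hEdJ := h.hEcJ }

section Case2

variable [Finite G] {σ : Finset ℕ} {r s c d : ℕ} [Fact r.Prime] [Fact s.Prime] [Fact c.Prime] [Fact d.Prime]
  {V W J Ec Ed : Subgroup G}

theorem CData.ordV (h : CData σ r s c d V W J Ec Ed) {v : G} (hv : v ∈ V) (h1 : v ≠ 1) : orderOf v = r :=
  orderOf_eq_prime (h.hVexp v hv) h1

theorem CData.no_core (h : CData σ r s c d V W J Ec Ed) {P₀ : Subgroup G} (hle : P₀ ≤ J) (hP : IsPGroup c P₀)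
    (hn : ∀ j ∈ J, Nrm j P₀) (hcen : ∀ k ∈ P₀, ∀ v ∈ V, k * v = v * k) : P₀ = ⊥ := by
  obtain ⟨e, he, he1, v, hv, hv1, hev⟩ := h.hEd.exists_fix h.hVne (not_dvd_of_isP Fact.out h.rd.symm h.hV)
    (fun e he => h.hJV e (h.hEdJ he))
  have heo := h.hEd.order he he1
  have hvo := h.ordV hv hv1
  have hfpP : Fpf e P₀ := by
    intro u hu heu
    by_contra hu1
    exact h.hNT.elim_p h.hd h.hr h.hc h.rd.symm h.rc h.cd.symm hP hu hu1 heo hvo hev (hcen u hu v hv).symm heu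
  have hfpW : Fpf e W := by
    intro w hw hew
    by_contra hw1
    exact h.hNT.elim_p h.hd h.hr h.hs h.rd.symm h.rs h.sd.symm h.hW hw hw1 heo hvo hev (h.hVW v hv w hw) hew
  have hKW := frob_trivial (K := P₀) (W := W) heo h.hWab (fun k hk => h.hJW k (hle hk)) (h.hJW e (h.hEdJ he))
    (hn e (h.hEdJ he)) hfpP (cop_p h.sc h.hW hP) hfpW
  rw [eq_bot_iff]
  intro k hk
  rw [Subgroup.mem_bot]
  exact h.hfaith k (hle hk) (hcen k hk) (hKW k hk)

/-- `J` is faithful on `V`. -/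
theorem CData.faith (h : CData σ r s c d V W J Ec Ed) {x : G} (hx : x ∈ J) (hc : ∀ v ∈ V, x * v = v * x) : x = 1 := by
  by_contra hx1
  set N := J ⊓ Subgroup.centralizer (V : Set G) with hN
  have hxN : x ∈ N := ⟨hx, mem_cen.2 hc⟩
  have hNne : N ≠ ⊥ := by
    intro hb
    rw [hb, Subgroup.mem_bot] at hxN
    exact hx1 hxN
  obtain ⟨p, hp, hne⟩ := exists_coreIn_ne_bot N (solv_le inf_le_left h.hJsol) hNne
  haveI : Fact p.Prime := ⟨hp⟩
  have hpd := dvd_of_coreIn_ne_bot hne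
  have hNn : ∀ j ∈ J, Nrm j N := by
    intro j hj u hu
    refine ⟨J.mul_mem (J.mul_mem hj hu.1) (J.inv_mem hj), mem_cen.2 ?_⟩
    exact cen_conj (h.hJV _ (J.inv_mem hj)) (mem_cen.1 hu.2)
  have hcn : ∀ j ∈ J, Nrm j (coreIn p N) := fun j hj =>
    coreIn_nrm_ext p (hNn j hj) (hNn _ (J.inv_mem hj))
  have hle : coreIn p N ≤ N := coreIn_le p N
  have hcen : ∀ k ∈ coreIn p N, ∀ v ∈ V, k * v = v * k := fun k hk v hv => mem_cen.1 (hle hk).2 v hv
  rcases h.hJp p hp (hpd.trans (Subgroup.card_dvd_of_le inf_le_left)) with rfl | rfl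
  · exact hne (h.no_core (hle.trans inf_le_left) (coreIn_isP _ N) hcn hcen)
  · exact hne (h.swapCD.no_core (hle.trans inf_le_left) (coreIn_isP _ N) hcn hcen)

theorem CData.fpf_or (h : CData σ r s c d V W J Ec Ed) {f : G} (hfo : orderOf f = d) : Fpf f V ∨ Fpf f W := by
  by_contra hcon
  push Not at hcon
  unfold Fpf at hcon
  push Not at hcon
  obtain ⟨⟨v, hv, hfv, hv1⟩, ⟨w, hw, hfw, hw1⟩⟩ := hcon
  exact h.hNT.elim_p h.hd h.hr h.hs h.rd.symm h.rs h.sd.symm h.hW hw hw1 hfo (h.ordV hv hv1) hfv (h.hVW v hv w hw) hfw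

/-- Order-`d` elements without fixed points on `V`: commutators. -/
theorem CData.cent_A_aux (h : CData σ r s c d V W J Ec Ed) {A : Subgroup G} (hAJ : A ≤ J) (hAab : ∀ a ∈ A, ∀ b ∈ A, a * b = b * a)
    (hA : IsPGroup c A) (hn : ∀ j ∈ J, Nrm j A) {f : G} (hfJ : f ∈ J) (hfo : orderOf f = d) (hfp : Fpf f V) :
    ∀ x ∈ A, f * x = x * f := by
  intro x hx
  have h1 : ∀ v ∈ V, (f * x * f⁻¹ * x⁻¹) * v = v * (f * x * f⁻¹ * x⁻¹) := fun v hv =>
    comm_trivial hfo hAab h.hVab (hn f hfJ) (h.hJV f hfJ) (fun a ha => h.hJV a (hAJ ha))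
      (card_isPGroup_coprime hA Fact.out h.cd.symm) (cop_p h.rc h.hV hA) hfp hx hv
  have h2 : f * x * f⁻¹ * x⁻¹ ∈ J := J.mul_mem (J.mul_mem (J.mul_mem hfJ (hAJ hx)) (J.inv_mem hfJ)) (J.inv_mem (hAJ hx))
  exact comm_of_comm_one (h.faith h2 h1)

theorem CData.cent_A (h : CData σ r s c d V W J Ec Ed) {A : Subgroup G} (hAJ : A ≤ J) (hAab : ∀ a ∈ A, ∀ b ∈ A, a * b = b * a)
    (hA : IsPGroup c A) (hn : ∀ j ∈ J, Nrm j A) {f : G} (hfJ : f ∈ J) (hfo : orderOf f = d) : ∀ x ∈ A, f * x = x * f := by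
  rcases h.fpf_or hfo with h1 | h1
  · exact h.cent_A_aux hAJ hAab hA hn hfJ hfo h1
  · exact h.swapVW.cent_A_aux hAJ hAab hA hn hfJ hfo h1

/-- An element of order `c` centralized by `Ed` has no fixed points on `V`. -/
theorem CData.fpf_u (h : CData σ r s c d V W J Ec Ed) {u : G} (hu : orderOf u = c) (huJ : u ∈ J)
    (hcen : ∀ f ∈ Ed, f * u = u * f) : Fpf u V := by
  intro v hv huv
  by_contra hv1
  set X := V ⊓ Subgroup.centralizer ({u} : Set G) with hX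
  have hXne : X ≠ ⊥ := by
    intro hb
    have : v ∈ X := ⟨hv, Subgroup.mem_centralizer_singleton_iff.2 huv.symm⟩
    rw [hb, Subgroup.mem_bot] at this
    exact hv1 this
  obtain ⟨e, he, he1, w, hw, hw1, hew⟩ := h.hEd.exists_fix hXne (not_dvd_of_isP Fact.out h.rd.symm (h.hV.to_le inf_le_left))
    (fun e he => nrm_inf_centralizer (h.hJV e (h.hEdJ he)) (hcen e he))
  have huw : w * u = u * w := Subgroup.mem_centralizer_singleton_iff.1 hw.2
  exact h.hNT.elim3 h.hc h.hd h.hr h.cd h.rd.symm h.rc.symm hu (h.hEd.order he he1) (h.ordV hw.1 hw1) (hcen e he).symm hew huw.symm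

theorem CData.not_two (h : CData σ r s c d V W J Ec Ed) (hne : coreIn c J ≠ ⊥) : c ≠ 2 := by
  intro hc2
  set P := coreIn c J with hP
  have hPp : IsPGroup c P := coreIn_isP c J
  have hA : IsPGroup c (zc P) := hPp.to_le inf_le_left
  have hAJ : zc P ≤ J := inf_le_left.trans (coreIn_le c J)
  have hAn : ∀ j ∈ J, Nrm j (zc P) := fun j hj => zc_nrm (coreIn_nrm c J hj) (coreIn_nrm c J (J.inv_mem hj))
  obtain ⟨u, huA, huo, -⟩ := exists_central_order hA (zc_ne_bot hPp hne)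
  have hcen : ∀ f ∈ Ed, f * u = u * f := by
    intro f hf
    by_cases hf1 : f = 1
    · rw [hf1]; simp
    · exact h.cent_A hAJ zc_abelian hA hAn (h.hEdJ hf) (h.hEd.order hf hf1) u huA
  have hfV := h.fpf_u huo (hAJ huA) hcen
  have hfW := h.swapVW.fpf_u huo (hAJ huA) hcen
  obtain ⟨e, he, he1, v, hv, hv1, hev⟩ := h.hEc.exists_fix h.hVne (not_dvd_of_isP Fact.out h.rc.symm h.hV)
    (fun e he => h.hJV e (h.hEcJ he))
  have heo := h.hEc.order he he1
  have hfpW : Fpf e W := by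
    intro w hw hew
    by_contra hw1
    exact h.hNT.elim_p h.hc h.hr h.hs h.rc.symm h.rs h.sc.symm h.hW hw hw1 heo (h.ordV hv hv1) hev (h.hVW v hv w hw) hew
  have he2 : e ^ 2 = 1 := by rw [← hc2, ← heo]; exact pow_orderOf_eq_one e
  have hu2 : u ^ 2 = 1 := by rw [← hc2, ← huo]; exact pow_orderOf_eq_one u
  have hueJ : e * u ∈ J := J.mul_mem (h.hEcJ he) (hAJ huA)
  have htriv : ∀ w ∈ W, (e * u) * w = w * (e * u) := by
    intro w hw
    have h1 := inv_of_fpf hu2 h.hWab (h.hJW u (hAJ huA)) hfW hw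
    have h2 := inv_of_fpf he2 h.hWab (h.hJW e (h.hEcJ he)) hfpW (W.inv_mem hw)
    rw [inv_inv] at h2
    have h3 : (e * u) * w * (e * u)⁻¹ = w := by
      calc (e * u) * w * (e * u)⁻¹ = e * (u * w * u⁻¹) * e⁻¹ := by group
        _ = w := by rw [h1, h2]
    exact mul_inv_eq_iff_eq_mul.mp h3
  have h1 := h.swapVW.faith hueJ htriv
  have h2 : e = u := by
    have h3 : e = u⁻¹ := eq_inv_of_mul_eq_one_left h1
    rw [h3, inv_eq_iff_mul_eq_one, ← pow_two, hu2]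
  rw [h2] at hev
  exact hv1 (hfV v hv hev)

/-- Order-`d` elements centralize `O_c(J)` and `O_c(J)` has rank one. -/
theorem CData.claim (h : CData σ r s c d V W J Ec Ed) (hne : coreIn c J ≠ ⊥) :
    c ≠ 2 ∧ NoE2 c (coreIn c J) ∧ ∀ f ∈ J, orderOf f = d → ∀ k ∈ coreIn c J, f * k = k * f := by
  have hc2 := h.not_two hne
  set P := coreIn c J with hP
  have hPp : IsPGroup c P := coreIn_isP c J
  have hPJ : P ≤ J := coreIn_le c J
  have hcenV : ∀ (f : G), f ∈ J → orderOf f = d → Fpf f V → ∀ k ∈ P, f * k = k * f := by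
    intro f hfJ hfo hfp k hk
    have h1 := shult hc2 h.cd h.rc h.rd hPp h.hVexp h.hVab (fun g hg => h.hJV g (hPJ hg)) (coreIn_nrm c J hfJ) (h.hJV f hfJ)
      hfo hfp k hk
    have h2 : f * k * f⁻¹ * k⁻¹ ∈ J :=
      J.mul_mem (J.mul_mem (J.mul_mem hfJ (hPJ hk)) (J.inv_mem hfJ)) (J.inv_mem (hPJ hk))
    exact comm_of_comm_one (h.faith h2 h1)
  have hcenW : ∀ (f : G), f ∈ J → orderOf f = d → Fpf f W → ∀ k ∈ P, f * k = k * f := by
    intro f hfJ hfo hfp k hk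
    have h1 := shult hc2 h.cd h.sc h.sd hPp h.hWexp h.hWab (fun g hg => h.hJW g (hPJ hg)) (coreIn_nrm c J hfJ) (h.hJW f hfJ)
      hfo hfp k hk
    have h2 : f * k * f⁻¹ * k⁻¹ ∈ J :=
      J.mul_mem (J.mul_mem (J.mul_mem hfJ (hPJ hk)) (J.inv_mem hfJ)) (J.inv_mem (hPJ hk))
    exact comm_of_comm_one (h.swapVW.faith h2 h1)
  have hcen : ∀ f ∈ J, orderOf f = d → ∀ k ∈ P, f * k = k * f := by
    intro f hfJ hfo
    rcases h.fpf_or hfo with h1 | h1
    · exact hcenV f hfJ hfo h1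
    · exact hcenW f hfJ hfo h1
  refine ⟨hc2, ?_, hcen⟩
  intro x hx y hy hxo hyo hxy
  by_contra hny
  have hE := isE2_of_pair hxo hyo hxy hny
  have hle : Subgroup.zpowers x ⊔ Subgroup.zpowers y ≤ P := sup_le (Subgroup.zpowers_le.2 hx) (Subgroup.zpowers_le.2 hy)
  obtain ⟨f, hf, hf1, v, hv, hv1, hfv⟩ := h.hEd.exists_fix h.hVne (not_dvd_of_isP Fact.out h.rd.symm h.hV)
    (fun e he => h.hJV e (h.hEdJ he))
  have hfo := h.hEd.order hf hf1
  have hfJ := h.hEdJ hf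
  set X := V ⊓ Subgroup.centralizer ({f} : Set G) with hX
  have hXne : X ≠ ⊥ := by
    intro hb
    have : v ∈ X := ⟨hv, Subgroup.mem_centralizer_singleton_iff.2 hfv.symm⟩
    rw [hb, Subgroup.mem_bot] at this
    exact hv1 this
  obtain ⟨e, he, he1, w, hw, hw1, hew⟩ := hE.exists_fix hXne (not_dvd_of_isP Fact.out h.rc.symm (h.hV.to_le inf_le_left))
    (fun e he => nrm_inf_centralizer (h.hJV e (hPJ (hle he))) (hcen f hfJ hfo e (hle he)).symm)
  have hfw : w * f = f * w := Subgroup.mem_centralizer_singleton_iff.1 hw.2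
  exact h.hNT.elim3 h.hc h.hd h.hr h.cd h.rd.symm h.rc.symm (hE.order he he1) hfo (h.ordV hw.1 hw1)
    (hcen f hfJ hfo e (hle he)).symm hfw.symm hew

theorem CData.half (h : CData σ r s c d V W J Ec Ed) (hne : coreIn c J ≠ ⊥) : False := by
  obtain ⟨hc2, hNc, hcen⟩ := h.claim hne
  obtain ⟨f, hf, hf1⟩ := h.hEd.exists_ne
  have hfo := h.hEd.order hf hf1
  by_cases hd : coreIn d J = ⊥
  · have h1 := coreIn_fit h.hJsol h.hJp hd (h.hEdJ hf) (hcen f (h.hEdJ hf) hfo)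
    have h2 := Subgroup.orderOf_dvd_natCard _ h1
    rw [hfo] at h2
    exact not_dvd_of_isP Fact.out h.cd.symm (coreIn_isP c J) h2
  · obtain ⟨hd2, hNd, -⟩ := h.swapCD.claim hd
    refine final_contra h.cd hc2 hd2 h.hJsol h.hEc h.hEcJ h.hEd h.hEdJ hNc hNd ?_
    intro p hp h1 h2
    refine coreIn_eq_bot_of_primes hp ?_
    intro h3
    rcases h.hJp p hp h3 with h4 | h4
    · exact h1 h4
    · exact h2 h4

/-- **Case 2.** -/
theorem CData.main (h : CData σ r s c d V W J Ec Ed) : False := by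
  obtain ⟨f, hf, hf1⟩ := h.hEd.exists_ne
  have hJne : J ≠ ⊥ := by
    intro hb
    have := h.hEdJ hf
    rw [hb, Subgroup.mem_bot] at this
    exact hf1 this
  obtain ⟨p, hp, hne⟩ := exists_coreIn_ne_bot J h.hJsol hJne
  haveI : Fact p.Prime := ⟨hp⟩
  rcases h.hJp p hp (dvd_of_coreIn_ne_bot hne) with rfl | rfl
  · exact h.half hne
  · exact h.swapCD.half hne

end Case2

end Cfsg.Agent.Lib.KFour
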