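import Mathlib
import Cfsg.Agent.Lib.KFourF

/-!
# The case of one prime in the Fitting subgroup.
-/

set_option autoImplicit false
set_option linter.unusedSectionVars false
set_option linter.style.haveILetI false
set_option linter.unusedVariables false

namespace Cfsg.Agent.Lib.KFour

open Cfsg Cfsg.Agent.Lib.PCore
open scoped Pointwise

variable {G : Type*} [Group G]

/-- The data in the case of one prime in the Fitting subgroup. -/
structure HData (σ : Finset ℕ) (r : ℕ) (V H : Subgroup G) : Prop where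
  hNT : NoT σ G
  hσ : σ.card = 4
  hp : ∀ p ∈ σ, p.Prime
  hr : r ∈ σ
  hV : IsPGroup r V
  hVab : ∀ x ∈ V, ∀ y ∈ V, x * y = y * x
  hVexp : ∀ x ∈ V, x ^ r = 1
  hVne : V ≠ ⊥
  hHsol : Group.IsSolvable H
  hHV : ∀ x ∈ H, Nrm x V
  hHp : ∀ q : ℕ, q.Prime → q ∣ Nat.card H → q ∈ σ ∧ q ≠ r
  hfaith : ∀ x ∈ H, (∀ v ∈ V, x * v = v * x) → x = 1
  hE : ∀ d ∈ σ, d ≠ r → ∃ E : Subgroup G, E ≤ H ∧ IsE2 d E
  hedge : ∀ p ∈ σ, ∀ q ∈ σ, p ≠ r → q ≠ r → p ≠ q → ∃ x ∈ H, ∃ y ∈ H, orderOf x = p ∧ orderOf y = q ∧ x * y = y * x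

section Case1

variable [Finite G] {σ : Finset ℕ} {r : ℕ} [Fact r.Prime] {V H : Subgroup G}

theorem HData.claim (h : HData σ r V H) {t a b : ℕ} [Fact t.Prime] [Fact a.Prime] [Fact b.Prime] (ht : t ∈ σ) (ha : a ∈ σ)
    (hb : b ∈ σ) (tr : t ≠ r) (ar : a ≠ r) (br : b ≠ r) (ta : t ≠ a) (tb : t ≠ b) (ab : a ≠ b) (hT : coreIn t H ≠ ⊥) :
    t ≠ 2 ∧ NoE2 t (coreIn t H) ∧ ∀ x ∈ H, ∀ y ∈ H, orderOf x = a → orderOf y = b → x * y = y * x →
      (∀ k ∈ coreIn t H, x * k = k * x) ∨ (∀ k ∈ coreIn t H, y * k = k * y) := by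
  set T := coreIn t H with hTdef
  have hTp : IsPGroup t T := coreIn_isP t H
  have hTH : T ≤ H := coreIn_le t H
  have hTn : ∀ g ∈ H, Nrm g T := fun g hg => coreIn_nrm t H hg
  set A := zc T with hAdef
  have hAp : IsPGroup t A := hTp.to_le inf_le_left
  have hAH : A ≤ H := inf_le_left.trans hTH
  have hAn : ∀ g ∈ H, Nrm g A := fun g hg => zc_nrm (hTn g hg) (hTn _ (H.inv_mem hg))
  have hAne : A ≠ ⊥ := zc_ne_bot hTp hT
  have QD : ∀ x ∈ H, ∀ y ∈ H, orderOf x = a → orderOf y = b → x * y = y * x → QData σ t r a b A V x y := by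
    intro x hx y hy hxo hyo hxy
    exact
      { hNT := h.hNT, ht := ht, hr := h.hr, ha := ha, hb := hb, tr := tr, ta := ta, tb := tb, ra := ar.symm, rb := br.symm,
        ab := ab, hA := hAp, hAab := zc_abelian, hV := h.hV, hVab := h.hVab, hAV := fun k hk => h.hHV k (hAH hk),
        hfaith := fun k hk hc => h.hfaith k (hAH hk) hc, hya := hxo, hyb := hyo, hc := hxy, hyaA := hAn x hx,
        hybA := hAn y hy, hyaV := h.hHV x hx, hybV := h.hHV y hy }
  obtain ⟨Ea, hEaH, hEa⟩ := h.hE a ha ar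
  obtain ⟨Eb, hEbH, hEb⟩ := h.hE b hb br
  obtain ⟨ya, hya, yb, hyb, oa, ob, hc⟩ := h.hedge a ha b hb ar br ab
  have hM : ∀ B E : Subgroup G, B ≤ H → IsPGroup t B → (∀ g ∈ H, Nrm g B) → IsE2 t E → E ≤ B →
      (∀ x ∈ H, ∀ y ∈ H, orderOf x = a → orderOf y = b → x * y = y * x →
        (∀ k ∈ B, x * k = k * x) ∨ (∀ k ∈ B, y * k = k * y)) → False := by
    intro B E hBH hBp hBn hE hEB hP
    have MD : MData σ t r a b H V B E Ea Eb :=
      { hNT := h.hNT, ht := ht, hr := h.hr, ha := ha, hb := hb, tr := tr, ta := ta, tb := tb, ra := ar.symm, rb := br.symm,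
        ab := ab, hHsol := h.hHsol, hV := h.hV, hVab := h.hVab, hVne := h.hVne, hHV := h.hHV, hBH := hBH, hB := hBp,
        hHB := hBn, hEt := hE, hEtB := hEB, hEa := hEa, hEaH := hEaH, hEb := hEb, hEbH := hEbH, hP := hP }
    exact MD.main hya hyb oa ob hc
  have hPA : ∀ x ∈ H, ∀ y ∈ H, orderOf x = a → orderOf y = b → x * y = y * x →
      (∀ k ∈ A, x * k = k * x) ∨ (∀ k ∈ A, y * k = k * y) := by
    intro x hx y hy hxo hyo hxy
    rcases (QD x hx y hy hxo hyo hxy).main hAne with h1 | h1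
    · exact Or.inl h1.1
    · exact Or.inr h1.1
  have hNoA : NoE2 t A := by
    intro x hx y hy hxo hyo hxy
    by_contra hny
    exact hM A _ hAH hAp hAn (isE2_of_pair hxo hyo hxy hny)
      (sup_le (Subgroup.zpowers_le.2 hx) (Subgroup.zpowers_le.2 hy)) hPA
  obtain ⟨x₀, hx₀, hxo, huniq⟩ := exists_unique_of_noE2 hAp hAne hNoA
  have ht2 : t ≠ 2 := by
    intro ht2
    have hcen : ∀ g ∈ H, g * x₀ = x₀ * g := by
      intro g hg
      have h1 := huniq _ (hAn g hg _ hx₀) ((orderOf_conj' g x₀).trans hxo)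
      have h2 : g * x₀ * g⁻¹ ≠ 1 := by
        intro h3
        have h4 := (orderOf_conj' g x₀).trans hxo
        rw [h3, orderOf_one] at h4
        exact (Fact.out : t.Prime).one_lt.ne h4
      have h3 := zpowers_two (hxo.trans ht2) h1 h2
      exact mul_inv_eq_iff_eq_mul.mp h3
    exact h.hNT.elim3 ha hb ht ab tb.symm ta.symm oa ob hxo hc (hcen yb hyb) (hcen ya hya)
  have key : ∀ z ∈ H, ∀ s : ℕ, s.Prime → t ≠ s → r ≠ s → orderOf z = s → Fpf z V → ∀ k ∈ T, z * k = k * z := by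
    intro z hz s hs hts hrs hzo hfp k hk
    haveI : Fact s.Prime := ⟨hs⟩
    have h1 := shult ht2 hts tr.symm hrs hTp h.hVexp h.hVab (fun g hg => h.hHV g (hTH hg)) (hTn z hz) (h.hHV z hz) hzo hfp k hk
    have h2 : z * k * z⁻¹ * k⁻¹ ∈ H :=
      H.mul_mem (H.mul_mem (H.mul_mem hz (hTH hk)) (H.inv_mem hz)) (H.inv_mem (hTH hk))
    exact comm_of_comm_one (h.hfaith _ h2 h1)
  have hPT : ∀ x ∈ H, ∀ y ∈ H, orderOf x = a → orderOf y = b → x * y = y * x →
      (∀ k ∈ T, x * k = k * x) ∨ (∀ k ∈ T, y * k = k * y) := by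
    intro x hx y hy hxo hyo hxy
    rcases (QD x hx y hy hxo hyo hxy).main hAne with h1 | h1
    · exact Or.inl (key x hx a Fact.out ta ar.symm hxo h1.2.1)
    · exact Or.inr (key y hy b Fact.out tb br.symm hyo h1.2.1)
  refine ⟨ht2, ?_, hPT⟩
  intro x hx y hy hxo hyo hxy
  by_contra hny
  exact hM T _ hTH hTp hTn (isE2_of_pair hxo hyo hxy hny)
    (sup_le (Subgroup.zpowers_le.2 hx) (Subgroup.zpowers_le.2 hy)) hPT

/-- **Case 1.** -/
theorem HData.main (h : HData σ r V H) : False := by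
  have hcard3 : (σ.erase r).card = 3 := by rw [Finset.card_erase_of_mem h.hr, h.hσ]
  obtain ⟨q₀, hq₀⟩ : (σ.erase r).Nonempty := by rw [← Finset.card_pos]; omega
  obtain ⟨E₀, hE₀H, hE₀⟩ := h.hE q₀ (Finset.mem_of_mem_erase hq₀) (Finset.ne_of_mem_erase hq₀)
  haveI : Fact q₀.Prime := ⟨h.hp _ (Finset.mem_of_mem_erase hq₀)⟩
  have hHne : H ≠ ⊥ := by
    obtain ⟨e, he, he1⟩ := hE₀.exists_ne
    intro hb
    have := hE₀H he
    rw [hb, Subgroup.mem_bot] at this
    exact he1 this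
  obtain ⟨t, htP, hT⟩ := exists_coreIn_ne_bot H h.hHsol hHne
  haveI : Fact t.Prime := ⟨htP⟩
  obtain ⟨ht, tr⟩ := h.hHp t htP (dvd_of_coreIn_ne_bot hT)
  have hcard2 : ((σ.erase r).erase t).card = 2 := by
    rw [Finset.card_erase_of_mem (Finset.mem_erase.2 ⟨tr, ht⟩), hcard3]
  obtain ⟨a, b, ab, hset⟩ := Finset.card_eq_two.mp hcard2
  have haS : a ∈ (σ.erase r).erase t := by rw [hset]; simp
  have hbS : b ∈ (σ.erase r).erase t := by rw [hset]; simp
  have ha : a ∈ σ := Finset.mem_of_mem_erase (Finset.mem_of_mem_erase haS)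
  have hb : b ∈ σ := Finset.mem_of_mem_erase (Finset.mem_of_mem_erase hbS)
  have ar : a ≠ r := Finset.ne_of_mem_erase (Finset.mem_of_mem_erase haS)
  have br : b ≠ r := Finset.ne_of_mem_erase (Finset.mem_of_mem_erase hbS)
  have ta : t ≠ a := (Finset.ne_of_mem_erase haS).symm
  have tb : t ≠ b := (Finset.ne_of_mem_erase hbS).symm
  haveI : Fact a.Prime := ⟨h.hp a ha⟩
  haveI : Fact b.Prime := ⟨h.hp b hb⟩
  have hout : ∀ p : ℕ, p.Prime → p ≠ t → p ≠ a → p ≠ b → coreIn p H = ⊥ := by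
    intro p hp h1 h2 h3
    refine coreIn_eq_bot_of_primes hp ?_
    intro hd
    obtain ⟨h4, h5⟩ := h.hHp p hp hd
    have h6 : p ∈ (σ.erase r).erase t := Finset.mem_erase.2 ⟨h1, Finset.mem_erase.2 ⟨h5, h4⟩⟩
    rw [hset] at h6
    simp only [Finset.mem_insert, Finset.mem_singleton] at h6
    rcases h6 with h6 | h6
    · exact h2 h6
    · exact h3 h6
  obtain ⟨ht2, hNt, hP⟩ := h.claim ht ha hb tr ar br ta tb ab hT
  obtain ⟨Et, hEtH, hEt⟩ := h.hE t ht tr
  obtain ⟨Ea, hEaH, hEa⟩ := h.hE a ha ar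
  obtain ⟨Eb, hEbH, hEb⟩ := h.hE b hb br
  obtain ⟨ya, hya, yb, hyb, oa, ob, hc⟩ := h.hedge a ha b hb ar br ab
  by_cases hca : coreIn a H = ⊥
  · by_cases hcb : coreIn b H = ⊥
    · have hoth : ∀ p : ℕ, p.Prime → p ≠ t → coreIn p H = ⊥ := by
        intro p hp h1
        by_cases h2 : p = a
        · rw [h2]; exact hca
        by_cases h3 : p = b
        · rw [h3]; exact hcb
        exact hout p hp h1 h2 h3
      rcases hP ya hya yb hyb oa ob hc with h1 | h1
      · have h2 := coreIn_fit' h.hHsol hoth hya h1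
        have h3 := Subgroup.orderOf_dvd_natCard _ h2
        rw [oa] at h3
        exact not_dvd_of_isP Fact.out ta.symm (coreIn_isP t H) h3
      · have h2 := coreIn_fit' h.hHsol hoth hyb h1
        have h3 := Subgroup.orderOf_dvd_natCard _ h2
        rw [ob] at h3
        exact not_dvd_of_isP Fact.out tb.symm (coreIn_isP t H) h3
    · obtain ⟨hb2, hNb, -⟩ := h.claim hb ht ha br tr ar tb.symm ab.symm ta hcb
      refine final_contra tb ht2 hb2 h.hHsol hEt hEtH hEb hEbH hNt hNb ?_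
      intro p hp h1 h2
      by_cases h3 : p = a
      · rw [h3]; exact hca
      · exact hout p hp h1 h3 h2
  · by_cases hcb : coreIn b H = ⊥
    · obtain ⟨ha2, hNa, -⟩ := h.claim ha ht hb ar tr br ta.symm ab tb hca
      refine final_contra ta ht2 ha2 h.hHsol hEt hEtH hEa hEaH hNt hNa ?_
      intro p hp h1 h2
      by_cases h3 : p = b
      · rw [h3]; exact hcb
      · exact hout p hp h1 h2 h3
    · obtain ⟨x, hx, hxo⟩ := exists_order_of_isPGroup (coreIn_isP t H) hT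
      obtain ⟨y, hy, hyo⟩ := exists_order_of_isPGroup (coreIn_isP a H) hca
      obtain ⟨z, hz, hzo⟩ := exists_order_of_isPGroup (coreIn_isP b H) hcb
      exact h.hNT.elim3 ht ha hb ta ab tb hxo hyo hzo (coreIn_comm ta hx hy) (coreIn_comm ab hy hz) (coreIn_comm tb hx hz)

end Case1

end Cfsg.Agent.Lib.KFour
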