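import Mathlib
import Cfsg.Agent.Lib.KFourH

/-!
# Assembly for S3814.
-/

set_option autoImplicit false
set_option linter.unusedSectionVars false
set_option linter.style.haveILetI false
set_option linter.unusedVariables false

namespace Cfsg.Agent.Lib.KFour

open Cfsg Cfsg.Agent.Lib.PCore
open scoped Pointwise

universe u

variable {G : Type u} [Group G]

/-- Commuting elements of orders `p`, `q` conjugate into a Hall subgroup. -/
theorem edge_in [Finite G] {π : ℕ → Prop} {J L : Subgroup G} (hJ : IsHallIn π J L) (hsol : Group.IsSolvable L) {x y : G}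
    {p q : ℕ} [Fact p.Prime] [Fact q.Prime] (hxL : x ∈ L) (hyL : y ∈ L) (hpq : p ≠ q) (hx : orderOf x = p) (hy : orderOf y = q)
    (hxy : x * y = y * x) (hπp : π p) (hπq : π q) :
    ∃ x' ∈ J, ∃ y' ∈ J, orderOf x' = p ∧ orderOf y' = q ∧ x' * y' = y' * x' := by
  have hcop : (orderOf x).Coprime (orderOf y) := by
    rw [hx, hy]
    exact (Nat.coprime_primes Fact.out Fact.out).2 hpq
  have hord : orderOf (x * y) = p * q := by
    rw [(show Commute x y from hxy).orderOf_mul_eq_mul_orderOf_of_coprime hcop, hx, hy]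
  have hle : Subgroup.zpowers (x * y) ≤ L := Subgroup.zpowers_le.2 (L.mul_mem hxL hyL)
  obtain ⟨g, hgL, hg⟩ := hJ.conj hsol hle (fun r hr hd => by
    rw [Nat.card_zpowers, hord] at hd
    rcases hr.dvd_mul.mp hd with h1 | h1
    · rw [(Nat.prime_dvd_prime_iff_eq hr Fact.out).1 h1]; exact hπp
    · rw [(Nat.prime_dvd_prime_iff_eq hr Fact.out).1 h1]; exact hπq)
  have h1 := hg x (mem_zpowers_mul hpq hx hy hxy)
  have h2 := hg y (by
    have := mem_zpowers_mul hpq.symm hy hx hxy.symm
    rwa [← hxy] at this)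
  refine ⟨_, h1, _, h2, (orderOf_conj' g x).trans hx, (orderOf_conj' g y).trans hy, ?_⟩
  calc g * x * g⁻¹ * (g * y * g⁻¹) = g * (x * y) * g⁻¹ := by group
    _ = g * (y * x) * g⁻¹ := by rw [hxy]
    _ = g * y * g⁻¹ * (g * x * g⁻¹) := by group

/-- Rank two subgroups conjugate into a Hall subgroup. -/
theorem E_in [Finite G] {π : ℕ → Prop} {J L : Subgroup G} (hJ : IsHallIn π J L) (hsol : Group.IsSolvable L) {E : Subgroup G}
    {d : ℕ} [Fact d.Prime] (hEL : E ≤ L) (hE : IsE2 d E) (hπ : π d) : ∃ E' : Subgroup G, E' ≤ J ∧ IsE2 d E' := by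
  obtain ⟨g, -, hg⟩ := hJ.conj hsol hEL (fun r hr hd => by
    have : r = d := by
      by_contra hne
      exact not_dvd_of_isP hr hne hE.isPGroup hd
    rw [this]; exact hπ)
  refine ⟨E.map (MulAut.conj g).toMonoidHom, ?_, hE.conj g⟩
  rintro _ ⟨k, hk, rfl⟩
  exact hg k hk

/-- `Ω₁(Z(P))`. -/
def om1 (r : ℕ) (P : Subgroup G) : Subgroup G where
  carrier := {x | x ∈ zc P ∧ x ^ r = 1}
  mul_mem' := by
    rintro a b ⟨ha, ha'⟩ ⟨hb, hb'⟩
    refine ⟨(zc P).mul_mem ha hb, ?_⟩
    rw [(show Commute a b from zc_abelian a ha b hb).mul_pow, ha', hb', one_mul]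
  one_mem' := ⟨(zc P).one_mem, one_pow r⟩
  inv_mem' := by
    rintro a ⟨ha, ha'⟩
    exact ⟨(zc P).inv_mem ha, by rw [inv_pow, ha', inv_one]⟩

section Main

variable [Finite G] {σ : Finset ℕ}

/-- The structure of a nontrivial core in a minimal counterexample. -/
theorem core_structure (hsol : Group.IsSolvable G) (hp : ∀ p ∈ σ, p.Prime) (hKF : KF σ (⊤ : Subgroup G))
    (hmin : ∀ Y : Subgroup G, KF σ Y → Y = ⊤) (hrank : ∀ d ∈ σ, ∃ E : Subgroup G, IsE2 d E) {r : ℕ} [Fact r.Prime]
    (hO : pCore r G ≠ ⊥) (hrσ : r ∈ σ) :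
    (∀ a ∈ pCore r G, ∀ b ∈ pCore r G, a * b = b * a) ∧ (∀ a ∈ pCore r G, a ^ r = 1) := by
  have htop : Group.IsSolvable (⊤ : Subgroup G) := by
    haveI := hsol
    exact inferInstance
  set O := pCore r G with hOdef
  have hOp : IsPGroup r O := isPGroup_pCore r
  haveI hOn : O.Normal := pCore_normal r G
  set N := om1 r O with hNdef
  have hNO : N ≤ O := fun x hx => hx.1.1
  have hNp : IsPGroup r N := hOp.to_le hNO
  haveI hNn : N.Normal := by
    refine ⟨fun n hn g => ?_⟩
    refine ⟨zc_nrm (g := g) (fun w hw => hOn.conj_mem w hw g) (fun w hw => by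
      have := hOn.conj_mem w hw g⁻¹
      exact this) n hn.1, ?_⟩
    rw [conj_pow, hn.2]
    group
  have hNne : N ≠ ⊥ := by
    obtain ⟨x, hx, hxo, hc⟩ := exists_central_order hOp hO
    have hxN : x ∈ N := by
      refine ⟨⟨hx, Subgroup.mem_centralizer_iff.2 (fun g hg => (hc g hg).symm)⟩, ?_⟩
      rw [← hxo]
      exact pow_orderOf_eq_one x
    intro hb
    rw [hb, Subgroup.mem_bot] at hxN
    rw [hxN, orderOf_one] at hxo
    exact (Fact.out : r.Prime).one_lt.ne hxo
  obtain ⟨H, hH⟩ := exists_isHallIn (· ≠ r) (⊤ : Subgroup G) htop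
  have hYtop : N ⊔ H = ⊤ := by
    apply hmin
    have hN1 : ∀ {w : G}, w ∈ N → w ≠ 1 → orderOf w = r := fun {w} hw h1 => orderOf_eq_prime hw.2 h1
    have hfix : ∀ q ∈ σ, q ≠ r → ∃ e ∈ H, ∃ w ∈ N, orderOf e = q ∧ orderOf w = r ∧ e * w = w * e := by
      intro q hq hqr
      haveI : Fact q.Prime := ⟨hp q hq⟩
      obtain ⟨E, hE⟩ := hrank q hq
      obtain ⟨E', hE'H, hE'⟩ := E_in hH htop le_top hE hqr
      obtain ⟨e, he, he1, w, hw, hw1, hew⟩ := hE'.exists_fix hNne (not_dvd_of_isP Fact.out hqr hNp)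
        (fun e _ w hw => hNn.conj_mem w hw e)
      exact ⟨e, hE'H he, w, hw, hE'.order he he1, hN1 hw hw1, hew⟩
    intro p hpσ q hqσ hpq
    by_cases hpr : p = r
    · subst hpr
      obtain ⟨e, he, w, hw, heo, hwo, hew⟩ := hfix q hqσ hpq.symm
      exact ⟨w, (le_sup_left : N ≤ N ⊔ H) hw, e, (le_sup_right : H ≤ N ⊔ H) he, hwo, heo, hew.symm⟩
    by_cases hqr : q = r
    · subst hqr
      obtain ⟨e, he, w, hw, heo, hwo, hew⟩ := hfix p hpσ hpq
      exact ⟨e, (le_sup_right : H ≤ N ⊔ H) he, w, (le_sup_left : N ≤ N ⊔ H) hw, heo, hwo, hew⟩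
    haveI : Fact p.Prime := ⟨hp p hpσ⟩
    haveI : Fact q.Prime := ⟨hp q hqσ⟩
    obtain ⟨x, -, y, -, hx, hy, hxy⟩ := hKF p hpσ q hqσ hpq
    obtain ⟨x', hx', y', hy', h1, h2, h3⟩ := edge_in hH htop (Subgroup.mem_top x) (Subgroup.mem_top y) hpq hx hy hxy hpr hqr
    exact ⟨x', (le_sup_right : H ≤ N ⊔ H) hx', y', (le_sup_right : H ≤ N ⊔ H) hy', h1, h2, h3⟩
  have hle : O ≤ N := by
    intro x hx
    have hxY : x ∈ N ⊔ H := by rw [hYtop]; trivial
    rw [Subgroup.mem_sup_of_normal_left] at hxY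
    obtain ⟨n, hn, h, hh, rfl⟩ := hxY
    have h1 : h ∈ O := by
      have : h = n⁻¹ * (n * h) := by group
      rw [this]
      exact O.mul_mem (O.inv_mem (hNO hn)) hx
    have h2 := Subgroup.orderOf_dvd_natCard O h1
    have h3 := Subgroup.orderOf_dvd_natCard H hh
    have h4 : (Nat.card O).Coprime (Nat.card H) := by
      refine Nat.coprime_of_dvd ?_
      intro q hq h5 h6
      have h7 : q = r := by
        by_contra hne
        exact not_dvd_of_isP hq hne hOp h5
      exact hH.primes q hq h6 h7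
    have h5 : h = 1 := orderOf_eq_one_iff.mp (Nat.eq_one_of_dvd_coprimes h4 h2 h3)
    rw [h5, mul_one]
    exact hn
  refine ⟨fun a ha b hb => zc_abelian a (hle ha).1 b (hle hb).1, fun a ha => (hle ha).2⟩

theorem pCore_comm {p q : ℕ} [Fact p.Prime] [Fact q.Prime] (hpq : p ≠ q) {x y : G} (hx : x ∈ pCore p G) (hy : y ∈ pCore q G) :
    x * y = y * x := by
  have hdis : Disjoint (pCore p G) (pCore q G) := by
    rw [Subgroup.disjoint_def]
    intro u hu hu'
    exact eq_one_of_mem_p_q hpq (isPGroup_pCore p) (isPGroup_pCore q) hu hu'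
  exact Subgroup.commute_of_normal_of_disjoint _ _ (pCore_normal p G) (pCore_normal q G) hdis x y hx hy

/-- The main theorem for a minimal counterexample. -/
theorem core_main (hsol : Group.IsSolvable G) (hσ : σ.card = 4) (hp : ∀ p ∈ σ, p.Prime)
    (hKF : KF σ (⊤ : Subgroup G)) (hNT : NoT σ G) (hmin : ∀ Y : Subgroup G, KF σ Y → Y = ⊤) : False := by
  haveI := hsol
  have htop : Group.IsSolvable (⊤ : Subgroup G) := inferInstance
  have hrank := fun d (hd : d ∈ σ) => rank_lemma hsol hσ hp hKF hNT hd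
  -- primes of `G`
  have hprimes : ∀ q : ℕ, q.Prime → q ∣ Nat.card G → q ∈ σ := by
    obtain ⟨Y, hY⟩ := exists_isHallIn (· ∈ σ) (⊤ : Subgroup G) htop
    have hYtop : Y = ⊤ := by
      apply hmin
      intro p hpσ q hqσ hpq
      haveI : Fact p.Prime := ⟨hp p hpσ⟩
      haveI : Fact q.Prime := ⟨hp q hqσ⟩
      obtain ⟨x, -, y, -, hx, hy, hxy⟩ := hKF p hpσ q hqσ hpq
      exact edge_in hY htop (Subgroup.mem_top x) (Subgroup.mem_top y) hpq hx hy hxy hpσ hqσ
    intro q hq hd
    refine hY.primes q hq ?_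
    rw [hYtop, Subgroup.card_top]
    exact hd
  have hG : Nontrivial G := by
    obtain ⟨p₀, hp₀⟩ : σ.Nonempty := by rw [← Finset.card_pos]; omega
    obtain ⟨E, hE⟩ := hrank p₀ hp₀
    haveI : Fact p₀.Prime := ⟨hp p₀ hp₀⟩
    obtain ⟨e, -, he⟩ := hE.exists_ne
    exact ⟨⟨e, 1, he⟩⟩
  obtain ⟨r, hrP, hO⟩ := exists_pCore_ne_bot (G := G)
  haveI : Fact r.Prime := ⟨hrP⟩
  have hcoreσ : ∀ p : ℕ, p.Prime → pCore p G ≠ ⊥ → p ∈ σ := by
    intro p hp' hne
    haveI : Fact p.Prime := ⟨hp'⟩
    obtain ⟨x, hx, hxo⟩ := exists_order_of_isPGroup (isPGroup_pCore p) hne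
    refine hprimes p hp' ?_
    rw [← hxo]
    exact orderOf_dvd_natCard x
  have hr := hcoreσ r hrP hO
  obtain ⟨hVab, hVexp⟩ := core_structure hsol hp hKF hmin hrank hO hr
  have hcard3 : (σ.erase r).card = 3 := by rw [Finset.card_erase_of_mem hr, hσ]
  by_cases hs : ∃ s : ℕ, s.Prime ∧ s ≠ r ∧ pCore s G ≠ ⊥
  · obtain ⟨s, hsP, hsr, hO'⟩ := hs
    haveI : Fact s.Prime := ⟨hsP⟩
    have hsσ := hcoreσ s hsP hO'
    obtain ⟨hWab, hWexp⟩ := core_structure hsol hp hKF hmin hrank hO' hsσ
    have hcard2 : ((σ.erase r).erase s).card = 2 := by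
      rw [Finset.card_erase_of_mem (Finset.mem_erase.2 ⟨hsr, hsσ⟩), hcard3]
    obtain ⟨c, d, cd, hset⟩ := Finset.card_eq_two.mp hcard2
    have hcS : c ∈ (σ.erase r).erase s := by rw [hset]; simp
    have hdS : d ∈ (σ.erase r).erase s := by rw [hset]; simp
    have hc : c ∈ σ := Finset.mem_of_mem_erase (Finset.mem_of_mem_erase hcS)
    have hd : d ∈ σ := Finset.mem_of_mem_erase (Finset.mem_of_mem_erase hdS)
    have cr : c ≠ r := Finset.ne_of_mem_erase (Finset.mem_of_mem_erase hcS)
    have dr : d ≠ r := Finset.ne_of_mem_erase (Finset.mem_of_mem_erase hdS)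
    have cs : c ≠ s := Finset.ne_of_mem_erase hcS
    have ds : d ≠ s := Finset.ne_of_mem_erase hdS
    haveI : Fact c.Prime := ⟨hp c hc⟩
    haveI : Fact d.Prime := ⟨hp d hd⟩
    obtain ⟨J, hJ⟩ := exists_isHallIn (fun q => q = c ∨ q = d) (⊤ : Subgroup G) htop
    obtain ⟨E₁, hE₁⟩ := hrank c hc
    obtain ⟨E₂, hE₂⟩ := hrank d hd
    obtain ⟨Ec, hEcJ, hEc⟩ := E_in hJ htop le_top hE₁ (Or.inl rfl)
    obtain ⟨Ed, hEdJ, hEd⟩ := E_in hJ htop le_top hE₂ (Or.inr rfl)
    have hoth : ∀ p : ℕ, p.Prime → p ≠ r → p ≠ s → pCore p G = ⊥ := by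
      intro p hp' h1 h2
      by_contra hne
      haveI : Fact p.Prime := ⟨hp'⟩
      obtain ⟨x, hx, hxo⟩ := exists_order_of_isPGroup (isPGroup_pCore p) hne
      obtain ⟨y, hy, hyo⟩ := exists_order_of_isPGroup (isPGroup_pCore r) hO
      obtain ⟨z, hz, hzo⟩ := exists_order_of_isPGroup (isPGroup_pCore s) hO'
      exact hNT.elim3 (hcoreσ p hp' hne) hr hsσ h1 hsr.symm h2 hxo hyo hzo (pCore_comm h1 hx hy)
        (pCore_comm hsr.symm hy hz) (pCore_comm h2 hx hz)
    have hF : fittingSubgroup G ≤ pCore r G ⊔ pCore s G := by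
      rw [fittingSubgroup_eq_iSup_pCore]
      refine iSup_le fun p => ?_
      by_cases hp1 : (p : ℕ) = r
      · rw [hp1]; exact le_sup_left
      by_cases hp2 : (p : ℕ) = s
      · rw [hp2]; exact le_sup_right
      rw [hoth p p.2 hp1 hp2]
      exact bot_le
    have hfaith : ∀ x ∈ J, (∀ v ∈ pCore r G, x * v = v * x) → (∀ v ∈ pCore s G, x * v = v * x) → x = 1 := by
      intro x hx h1 h2
      have hsc : pCore r G ⊔ pCore s G ≤ Subgroup.centralizer ({x} : Set G) := by
        refine sup_le ?_ ?_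
        · intro k hk
          rw [Subgroup.mem_centralizer_singleton_iff]
          exact (h1 k hk).symm
        · intro k hk
          rw [Subgroup.mem_centralizer_singleton_iff]
          exact (h2 k hk).symm
      have hxF : x ∈ fittingSubgroup G := by
        refine centralizer_fittingSubgroup_le ?_
        rw [Subgroup.mem_centralizer_iff]
        intro z hz
        exact Subgroup.mem_centralizer_singleton_iff.1 (hsc (hF hz))
      have h3 := Subgroup.orderOf_dvd_natCard _ (hF hxF)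
      have h4 := h3.trans (card_sup_dvd (pCore r G) (pCore s G))
      have h5 := Subgroup.orderOf_dvd_natCard J hx
      have hcopV : (Nat.card (pCore r G)).Coprime (Nat.card J) := by
        refine Nat.coprime_of_dvd ?_
        intro q hq h6 h7
        have h8 : q = r := by
          by_contra hne
          exact not_dvd_of_isP hq hne (isPGroup_pCore r) h6
        rcases hJ.primes q hq h7 with h9 | h9
        · exact cr (h9.symm.trans h8)
        · exact dr (h9.symm.trans h8)
      have hcopW : (Nat.card (pCore s G)).Coprime (Nat.card J) := by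
        refine Nat.coprime_of_dvd ?_
        intro q hq h6 h7
        have h8 : q = s := by
          by_contra hne
          exact not_dvd_of_isP hq hne (isPGroup_pCore s) h6
        rcases hJ.primes q hq h7 with h9 | h9
        · exact cs (h9.symm.trans h8)
        · exact ds (h9.symm.trans h8)
      exact orderOf_eq_one_iff.mp (Nat.eq_one_of_dvd_coprimes (Nat.Coprime.mul_left hcopV hcopW) h4 h5)
    have CD : CData σ r s c d (pCore r G) (pCore s G) J Ec Ed :=
      { hNT := hNT, hr := hr, hs := hsσ, hc := hc, hd := hd, rs := hsr.symm, rc := cr.symm, rd := dr.symm, sc := cs.symm,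
        sd := ds.symm, cd := cd, hV := isPGroup_pCore r, hVab := hVab, hVexp := hVexp, hVne := hO, hW := isPGroup_pCore s,
        hWab := hWab, hWexp := hWexp, hWne := hO', hVW := fun x hx y hy => pCore_comm hsr.symm hx hy,
        hJsol := solv_le le_top htop, hJV := fun x _ w hw => (pCore_normal r G).conj_mem w hw x,
        hJW := fun x _ w hw => (pCore_normal s G).conj_mem w hw x, hJp := hJ.primes, hEc := hEc, hEcJ := hEcJ, hEd := hEd,
        hEdJ := hEdJ, hfaith := hfaith }
    exact CD.main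
  · have hoth : ∀ p : ℕ, p.Prime → p ≠ r → pCore p G = ⊥ := by
      intro p hp' h1
      by_contra hne
      exact hs ⟨p, hp', h1, hne⟩
    have hF : fittingSubgroup G ≤ pCore r G := by
      rw [fittingSubgroup_eq_iSup_pCore]
      refine iSup_le fun p => ?_
      by_cases hp1 : (p : ℕ) = r
      · rw [hp1]
      rw [hoth p p.2 hp1]
      exact bot_le
    obtain ⟨H, hH⟩ := exists_isHallIn (· ≠ r) (⊤ : Subgroup G) htop
    have HD : HData σ r (pCore r G) H :=
      { hNT := hNT, hσ := hσ, hp := hp, hr := hr, hV := isPGroup_pCore r, hVab := hVab, hVexp := hVexp, hVne := hO,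
        hHsol := solv_le le_top htop, hHV := fun x _ w hw => (pCore_normal r G).conj_mem w hw x,
        hHp := fun q hq hd => ⟨hprimes q hq (hd.trans (Subgroup.card_subgroup_dvd_card H)), hH.primes q hq hd⟩,
        hfaith := by
          intro x hx h1
          have hxF : x ∈ fittingSubgroup G := by
            refine centralizer_fittingSubgroup_le ?_
            rw [Subgroup.mem_centralizer_iff]
            intro z hz
            exact (h1 z (hF hz)).symm
          have h3 := Subgroup.orderOf_dvd_natCard _ (hF hxF)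
          have h5 := Subgroup.orderOf_dvd_natCard H hx
          have hcop : (Nat.card (pCore r G)).Coprime (Nat.card H) := by
            refine Nat.coprime_of_dvd ?_
            intro q hq h6 h7
            have h8 : q = r := by
              by_contra hne
              exact not_dvd_of_isP hq hne (isPGroup_pCore r) h6
            exact hH.primes q hq h7 h8
          exact orderOf_eq_one_iff.mp (Nat.eq_one_of_dvd_coprimes hcop h3 h5)
        hE := by
          intro d hd hdr
          haveI : Fact d.Prime := ⟨hp d hd⟩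
          obtain ⟨E, hE⟩ := hrank d hd
          exact E_in hH htop le_top hE hdr
        hedge := by
          intro p hpσ q hqσ hpr hqr hpq
          haveI : Fact p.Prime := ⟨hp p hpσ⟩
          haveI : Fact q.Prime := ⟨hp q hqσ⟩
          obtain ⟨x, -, y, -, hx, hy, hxy⟩ := hKF p hpσ q hqσ hpq
          exact edge_in hH htop (Subgroup.mem_top x) (Subgroup.mem_top y) hpq hx hy hxy hpr hqr }
    exact HD.main

end Main

/-- The theorem by induction on the order. -/
theorem no_counter (n : ℕ) : ∀ (G : Type u) [Group G] [Finite G], Nat.card G = n → Group.IsSolvable G →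
    ∀ σ : Finset ℕ, σ.card = 4 → (∀ p ∈ σ, p.Prime) → KF σ (⊤ : Subgroup G) → NoT σ G → False := by
  induction n using Nat.strong_induction_on with
  | _ n ih =>
    intro G _ _ hn hsol σ hσ hp hKF hNT
    refine core_main hsol hσ hp hKF hNT ?_
    intro Y hY
    by_contra hne
    have hlt : Nat.card Y < n := by
      have h1 := Y.card_mul_index
      have h2 : Y.index ≠ 1 := fun h => hne (Subgroup.index_eq_one.1 h)
      have h3 : Y.index ≠ 0 := Subgroup.index_ne_zero_of_finite
      have h4 : 0 < Nat.card Y := Nat.card_pos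
      have h5 : 2 ≤ Y.index := by omega
      rw [← hn, ← h1]
      nlinarith
    refine ih (Nat.card Y) hlt Y rfl (solv_le le_top (by haveI := hsol; exact inferInstance)) σ hσ hp ?_ ?_
    · intro p hpσ q hqσ hpq
      obtain ⟨x, hx, y, hy, h1, h2, h3⟩ := hY p hpσ q hqσ hpq
      refine ⟨⟨x, hx⟩, Subgroup.mem_top _, ⟨y, hy⟩, Subgroup.mem_top _, ?_, ?_, ?_⟩
      · rw [Subgroup.orderOf_mk]; exact h1
      · rw [Subgroup.orderOf_mk]; exact h2
      · exact Subtype.ext h3
    · intro x y z h1 h2 h3 h4 h5 h6 h7 h8 h9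
      refine hNT x y z ?_ ?_ ?_ ?_ ?_ ?_ (congrArg Subtype.val h7) (congrArg Subtype.val h8) (congrArg Subtype.val h9)
      · rwa [Subgroup.orderOf_coe]
      · rwa [Subgroup.orderOf_coe]
      · rwa [Subgroup.orderOf_coe]
      · rwa [Subgroup.orderOf_coe, Subgroup.orderOf_coe]
      · rwa [Subgroup.orderOf_coe, Subgroup.orderOf_coe]
      · rwa [Subgroup.orderOf_coe, Subgroup.orderOf_coe]

end Cfsg.Agent.Lib.KFour
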