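import Mathlib
import Cfsg.Agent.Lib.KInf
import Cfsg.Agent.Lib.NPCFunctor
import Cfsg.Agent.Lib.SecFunctor
import Cfsg.Agent.Lib.WeakClosureLocal
import Cfsg.Agent.Lib.WeakClosureMain
import Cfsg.Prelude.Def_Amalgam
import Cfsg.Prelude.Def_PLocal

/-!
# When the K-sequence of a Sylow subgroup stays in `O_p`
-/

set_option autoImplicit false

namespace Cfsg.Agent.Lib.KInfThm

open Cfsg Cfsg.Agent.Lib.KInf Cfsg.Agent.Lib.PCore Cfsg.Agent.Lib.WeakClosureLocal
open scoped commutatorElement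

universe u

/-- **The abstract lemma.** -/
theorem kSeq_bounds {P : Type*} [Group P] (A T : Subgroup P) [hAn : A.Normal]
    (hA2 : A ∈ classTwoSubgroups P) (hAT : ⁅A, T⁆ ≤ A ⊓ Subgroup.centralizer (A : Set P))
    (H₁ : ∀ A' ∈ classTwoSubgroups P, A ≤ Subgroup.normalizer (A' : Set P) → ⁅A, ⁅A', A'⁆⁆ = ⊥ →
      ⁅⁅A ⊓ Subgroup.centralizer (A : Set P), A'⁆, A'⁆ = ⊥ → ⁅A, A'⁆ ≤ A ⊓ Subgroup.centralizer (A : Set P))
    (H₂ : ∀ B ∈ classTwoSubgroups P, ⁅B, A⁆ ≤ B ⊓ Subgroup.centralizer (B : Set P) → B ≤ T)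
    (H₃ : ∀ Q : Subgroup P, A ≤ Q → ∀ B ∈ kLowerStarFamily Q, B ≤ T) (n : ℕ) :
    (kSeqEven P n ≤ T ∧ A ≤ kSeqEven P n) ∧ (kSeqOdd P (n + 1) ≤ T ∧ A ≤ kSeqOdd P (n + 1)) := by
  have hlow : ∀ Q : Subgroup P, A ∈ kLowerStarFamily Q := by
    intro Q
    refine ⟨hA2, ?_, ?_⟩
    · rw [Subgroup.normalizer_eq_top_iff.mpr hAn]; exact le_top
    · intro A' hA' _ h1 h2 h3
      exact H₁ A' hA' h1 h2 h3
  have hAodd : ∀ n, A ≤ kSeqOdd P n → (kSeqEven P n ≤ T ∧ A ≤ kSeqEven P n) ∧ (kSeqOdd P (n + 1) ≤ T ∧ A ≤ kSeqOdd P (n + 1)) := by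
    intro n hn
    have hE : kSeqEven P n ≤ T := sSup_le fun B hB => H₃ _ hn B hB
    have hAE : A ≤ kSeqEven P n := le_lowStar (hlow _)
    refine ⟨⟨hE, hAE⟩, ?_, ?_⟩
    · refine sSup_le fun B hB => H₂ B hB.1 ?_
      exact (Subgroup.commutator_mono le_rfl hAE).trans hB.2
    · refine le_upStar ⟨hA2, ?_⟩
      exact (Subgroup.commutator_mono le_rfl hE).trans hAT
  induction n with
  | zero => exact hAodd 0 le_top
  | succ n ih => exact hAodd (n + 1) ih.2.2

variable {Y : Type u} [Group Y] [Finite Y] {p : ℕ} [hp : Fact p.Prime]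

/-- If the K-sequence of `S` stays in `O_p`, the K-infinity subgroups are normal. -/
theorem normal_kInf_of_bounds (S : Sylow p Y)
    (hT : ∀ n, kSeqEven ↥(S : Subgroup Y) n ≤ (pCore p Y).subgroupOf (S : Subgroup Y) ∧
      kSeqOdd ↥(S : Subgroup Y) (n + 1) ≤ (pCore p Y).subgroupOf (S : Subgroup Y)) :
    (inducedFunctor kInfLower (S : Subgroup Y)).Normal ∧ (inducedFunctor kInfUpper (S : Subgroup Y)).Normal := by
  set Q := (pCore p Y).subgroupOf (S : Subgroup Y) with hQ
  have hPS := pCore_le_sylow (G := Y) p S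
  have hQmap : Q.map (S : Subgroup Y).subtype = pCore p Y := Subgroup.map_subgroupOf_eq_of_le hPS
  have hSp : IsPGroup p (S : Subgroup Y) := S.isPGroup'
  have hQp : IsPGroup p Q := IsPGroup.to_subgroup hSp Q
  obtain ⟨h1, h2⟩ := kInf_of_subgroup Q hT
  have hPn : (pCore p Y).Normal := inferInstance
  have key : ∀ W : ∀ (Q : Type u) [Group Q], Subgroup Q, IsCharPFunctor.{u} p W →
      (W ↥Q).map Q.subtype = W ↥(S : Subgroup Y) → (inducedFunctor W (S : Subgroup Y)).Normal := by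
    intro W hW hW2
    have e : inducedFunctor W (S : Subgroup Y) = inducedFunctor W (pCore p Y) := by
      show (W ↥(S : Subgroup Y)).map (S : Subgroup Y).subtype = _
      rw [← hW2]
      have := Cfsg.Agent.Lib.NPCFunctor.map_inducedFunctor hW Q hQp (S : Subgroup Y).subtype
        (fun x _ hx => (Subgroup.subtype_injective _) (by simpa using hx))
      rw [hQmap] at this
      exact this
    rw [e]
    apply Subgroup.normalizer_eq_top_iff.mp
    rw [eq_top_iff]
    have h3 := Cfsg.Agent.Lib.SecFunctor.normalizer_le_induced hW (pCore p Y) (isPGroup_pCore p)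
    rw [Subgroup.normalizer_eq_top_iff.mpr hPn] at h3
    exact h3
  exact ⟨key _ isCharPFunctor_kInfLower h1, key _ isCharPFunctor_kInfUpper h2⟩

/-- **Theorem.** If no element of `S` outside `O_p` acts quadratically on `Z(O_p)`, the K-infinity subgroups are normal. -/
theorem normal_of_no_quad (S : Sylow p Y)
    (h : ∀ g ∈ (S : Subgroup Y), ⁅⁅ZP p Y, Subgroup.zpowers g⁆, Subgroup.zpowers g⁆ = ⊥ → g ∈ pCore p Y) :
    (inducedFunctor kInfLower (S : Subgroup Y)).Normal ∧ (inducedFunctor kInfUpper (S : Subgroup Y)).Normal := by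
  refine normal_kInf_of_bounds S ?_
  set P := ↥(S : Subgroup Y) with hP
  set T : Subgroup P := (pCore p Y).subgroupOf (S : Subgroup Y) with hT
  set A : Subgroup P := (ZP p Y).subgroupOf (S : Subgroup Y) with hA
  have hVn : (ZP p Y).Normal := inferInstance
  have hAn : A.Normal := Subgroup.Normal.subgroupOf hVn _
  have hAab : ∀ a ∈ A, ∀ b ∈ A, a * b = b * a := by
    intro a ha b hb
    apply Subtype.ext
    exact ZP_abelian _ (Subgroup.mem_subgroupOf.mp ha) _ (Subgroup.mem_subgroupOf.mp hb)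
  have hAcomm : ⁅A, A⁆ = ⊥ := by
    rw [eq_bot_iff, Subgroup.commutator_le]
    intro a ha b hb
    rw [Subgroup.mem_bot, commutatorElement_eq_one_iff_mul_comm]
    exact hAab a ha b hb
  have hAC : A ≤ Subgroup.centralizer (A : Set P) := fun a ha =>
    Subgroup.mem_centralizer_iff.mpr fun b hb => hAab b hb a ha
  have hA2 : A ∈ classTwoSubgroups P := by
    show ⁅A, A⁆ ≤ _
    rw [hAcomm]; exact bot_le
  have hZA : A ⊓ Subgroup.centralizer (A : Set P) = A := inf_eq_left.mpr hAC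
  have hAT : ⁅A, T⁆ = ⊥ := by
    rw [eq_bot_iff, Subgroup.commutator_le]
    intro a ha t ht
    rw [Subgroup.mem_bot, commutatorElement_eq_one_iff_mul_comm]
    apply Subtype.ext
    have h1 := (Subgroup.mem_subgroupOf.mp ha).2
    have h2 : (t : Y) ∈ pCore p Y := Subgroup.mem_subgroupOf.mp ht
    exact (Subgroup.mem_centralizer_iff.mp h1 t h2).symm
  have hquad : ∀ g : P, ⁅⁅A, Subgroup.zpowers g⁆, Subgroup.zpowers g⁆ = ⊥ → g ∈ T := by
    intro g hg
    apply Subgroup.mem_subgroupOf.mpr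
    apply h g g.2
    have hAm : A.map (S : Subgroup Y).subtype = ZP p Y := by
      apply Subgroup.map_subgroupOf_eq_of_le
      exact inf_le_left.trans (pCore_le_sylow (G := Y) p S)
    have hzm : (Subgroup.zpowers g).map (S : Subgroup Y).subtype = Subgroup.zpowers (g : Y) :=
      MonoidHom.map_zpowers _ g
    have := congrArg (Subgroup.map (S : Subgroup Y).subtype) hg
    rwa [Subgroup.map_commutator, Subgroup.map_commutator, hAm, hzm, Subgroup.map_bot] at this
  have H₂ : ∀ B ∈ classTwoSubgroups P, ⁅B, A⁆ ≤ B ⊓ Subgroup.centralizer (B : Set P) → B ≤ T := by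
    intro B _ hB g hg
    apply hquad
    rw [eq_bot_iff, Subgroup.commutator_le]
    intro c hc d hd
    have hcZ : c ∈ B ⊓ Subgroup.centralizer (B : Set P) := by
      have h1 : ⁅A, Subgroup.zpowers g⁆ ≤ B ⊓ Subgroup.centralizer (B : Set P) := by
        have h2 : ⁅A, Subgroup.zpowers g⁆ ≤ ⁅A, B⁆ := Subgroup.commutator_mono le_rfl (Subgroup.zpowers_le.mpr hg)
        rw [Subgroup.commutator_comm A B] at h2
        exact h2.trans hB
      exact h1 hc
    have hdB : d ∈ B := (Subgroup.zpowers_le.mpr hg) hd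
    rw [Subgroup.mem_bot, commutatorElement_eq_one_iff_mul_comm]
    exact (Subgroup.mem_centralizer_iff.mp hcZ.2 d hdB).symm
  intro n
  have := kSeq_bounds A T hA2 (by rw [hAT]; exact bot_le) ?_ H₂ ?_ n
  · exact ⟨this.1.1, this.2.1⟩
  · intro A' _ _ _ h3
    rw [hZA] at h3 ⊢
    have hA'T : A' ≤ T := by
      intro g hg
      apply hquad
      rw [eq_bot_iff, ← h3]
      exact Subgroup.commutator_mono (Subgroup.commutator_mono le_rfl (Subgroup.zpowers_le.mpr hg)) (Subgroup.zpowers_le.mpr hg)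
    have h4 : ⁅A, A'⁆ ≤ ⁅A, T⁆ := Subgroup.commutator_mono le_rfl hA'T
    rw [hAT] at h4
    exact h4.trans bot_le
  · intro Q hQ B hB
    refine H₂ B hB.1 (hB.2.2 A hA2 hQ ?_ ?_ ?_)
    · rw [Subgroup.normalizer_eq_top_iff.mpr hAn]; exact le_top
    · rw [hAcomm, Subgroup.commutator_bot_right]
    · rw [eq_bot_iff, ← hAcomm]
      refine Subgroup.commutator_mono ?_ le_rfl
      rw [Subgroup.commutator_le]
      intro z _ a ha
      have : ⁅z, a⁆ = (z * a * z⁻¹) * a⁻¹ := by rw [commutatorElement_def]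
      rw [this]
      exact A.mul_mem (hAn.conj_mem a ha z) (A.inv_mem ha)

section Local

variable {G : Type u} [Group G] [Finite G]

/-- Passing from the group `↥H` to `G`. -/
theorem le_normalizer_of_normal {W : ∀ (Q : Type u) [Group Q], Subgroup Q} (hW : IsCharPFunctor.{u} p W)
    {H T : Subgroup G} (hTH : T ≤ H) (S₀ : Subgroup H) (hS₀ : S₀ = T.subgroupOf H) (hS₀p : IsPGroup p S₀)
    (hn : (inducedFunctor W S₀).Normal) :
    H ≤ Subgroup.normalizer ((inducedFunctor W T : Subgroup G) : Set G) := by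
  have e := Cfsg.Agent.Lib.NPCFunctor.map_inducedFunctor hW S₀ hS₀p H.subtype
    (fun x _ hx => H.subtype_injective (by simpa using hx))
  have hm : S₀.map H.subtype = T := by
    rw [hS₀]
    exact Subgroup.map_subgroupOf_eq_of_le hTH
  rw [hm] at e
  intro h hh
  apply Cfsg.Agent.Lib.Replacement.mem_normalizer_of_forall
  intro x hx
  rw [← e] at hx ⊢
  obtain ⟨x₀, hx₀, rfl⟩ := hx
  exact ⟨(⟨h, hh⟩ : H) * x₀ * (⟨h, hh⟩ : H)⁻¹, hn.conj_mem x₀ hx₀ _, by simp⟩

/-- The hypothesis of the weak closure theorems for the lower (or upper) K-infinity subgroup. -/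
theorem hloc_quad_kInf (H T : Subgroup G) (hTH : T ≤ H) (hTp : IsPGroup p T) (hrel : ¬ p ∣ T.relIndex H)
    (hnot : ¬ (H ≤ Subgroup.normalizer ((inducedFunctor kInfLower T : Subgroup G) : Set G) ∧
      H ≤ Subgroup.normalizer ((inducedFunctor kInfUpper T : Subgroup G) : Set G))) :
    ∃ g : G, g ∈ T ∧ g ∉ pCoreOf p H ∧
      ⁅⁅pCoreOf p H ⊓ Subgroup.centralizer ((pCoreOf p H : Subgroup G) : Set G), Subgroup.zpowers g⁆, Subgroup.zpowers g⁆ = ⊥ := by
  have hT' : IsPGroup p (T.subgroupOf H) := hTp.comap_of_injective H.subtype H.subtype_injective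
  let S₀ : Sylow p H := hT'.toSylow hrel
  have hS₀ : (S₀ : Subgroup H) = T.subgroupOf H := rfl
  by_contra hcon
  push Not at hcon
  apply hnot
  have hmain := normal_of_no_quad S₀ ?_
  · exact ⟨le_normalizer_of_normal isCharPFunctor_kInfLower hTH _ hS₀ S₀.isPGroup' hmain.1,
      le_normalizer_of_normal isCharPFunctor_kInfUpper hTH _ hS₀ S₀.isPGroup' hmain.2⟩
  · intro g hg hq
    by_contra hgP
    have hgT : (g : G) ∈ T := Subgroup.mem_subgroupOf.mp hg
    have hgP' : (g : G) ∉ pCoreOf p H := by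
      rintro ⟨x, hx, hxe⟩
      have : x = g := Subtype.ext hxe
      exact hgP (this ▸ hx)
    apply hcon g hgT hgP'
    have hle : pCoreOf p H ⊓ Subgroup.centralizer ((pCoreOf p H : Subgroup G) : Set G) ≤ (ZP p H).map H.subtype := by
      rintro x ⟨⟨x₀, hx₀, rfl⟩, hc⟩
      refine ⟨x₀, ⟨hx₀, ?_⟩, rfl⟩
      refine Subgroup.mem_centralizer_iff.mpr fun t ht => ?_
      apply Subtype.ext
      exact Subgroup.mem_centralizer_iff.mp hc t ⟨t, ht, rfl⟩
    have hz : Subgroup.zpowers (g : G) = (Subgroup.zpowers g).map H.subtype := (MonoidHom.map_zpowers H.subtype g).symm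
    rw [eq_bot_iff, hz]
    refine (Subgroup.commutator_mono (Subgroup.commutator_mono hle le_rfl) le_rfl).trans ?_
    rw [← Subgroup.map_commutator, ← Subgroup.map_commutator, hq, Subgroup.map_bot]

/-- Weak closure hypothesis in the Engel form, for `p` odd. -/
theorem engel_of_quad (hp2 : p ≠ 2) {Z U V : Subgroup G} {g : G}
    (hq : ⁅⁅Z, Subgroup.zpowers g⁆, Subgroup.zpowers g⁆ = ⊥) (hU : U ≤ Z) :
    iterCommutator U (Subgroup.zpowers g) (p - 1) ≤ V := by
  have hp3 : 3 ≤ p := by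
    have := hp.out.two_le
    omega
  obtain ⟨k, hk⟩ : ∃ k, p - 1 = k + 2 := ⟨p - 3, by omega⟩
  rw [hk]
  have h2 : iterCommutator U (Subgroup.zpowers g) 2 = ⊥ := by
    rw [eq_bot_iff, ← hq]
    exact Subgroup.commutator_mono (Subgroup.commutator_mono hU le_rfl) le_rfl
  have h3 : ∀ k, iterCommutator U (Subgroup.zpowers g) (k + 2) = ⊥ := by
    intro k
    induction k with
    | zero => exact h2
    | succ k ih =>
      show ⁅iterCommutator U (Subgroup.zpowers g) (k + 2), Subgroup.zpowers g⁆ = ⊥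
      rw [ih, Subgroup.commutator_bot_left]
  rw [h3]
  exact bot_le

end Local

end Cfsg.Agent.Lib.KInfThm
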