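import Mathlib
import Cfsg.Agent.Lib.KInfThm
import Cfsg.Agent.Lib.StableW
import Cfsg.Agent.Lib.Replacement
import Cfsg.Agent.Lib.ChainStab
import Cfsg.Agent.Lib.TransferLocal
import Cfsg.Agent.Lib.EngelChief
import Cfsg.Agent.Lib.PResid
import Cfsg.Agent.Lib.KInfLocal

/-!
# Theorem P for the K-infinity subgroups
-/

set_option autoImplicit false

namespace Cfsg.Agent.Lib.KInfStable

open Cfsg Cfsg.Agent.Lib.KInf Cfsg.Agent.Lib.PCore Cfsg.Agent.Lib.WeakClosureLocal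
open scoped commutatorElement

universe u

variable {p : ℕ} [hp : Fact p.Prime]

/-- The abstract stability lemma. -/
theorem spf_abstract {Z : Type*} [Group Z] [Finite Z] (hst : IsNormalizerPStable p Z)
    (P₀ B₁ F : Subgroup Z) (hP₀ : IsPGroup p P₀) (hB₁ : IsPGroup p B₁)
    (hBN : B₁ ≤ Subgroup.normalizer (P₀ : Set Z)) (hFN : F ≤ Subgroup.normalizer (P₀ : Set Z))
    (hBF : B₁ ≤ Subgroup.normalizer (F : Set Z))
    (hq : ∀ g ∈ B₁, ⁅⁅P₀, Subgroup.zpowers g⁆, Subgroup.zpowers g⁆ = ⊥)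
    (hF : F ≤ ⁅F, B₁⁆) : F ≤ Subgroup.centralizer (P₀ : Set Z) := by
  set N := Subgroup.normalizer (P₀ : Set Z) with hN
  set C := (Subgroup.centralizer (P₀ : Set Z)).subgroupOf N with hC
  let π : ↥N →* ↥N ⧸ C := QuotientGroup.mk' C
  set Fh : Subgroup (↥N ⧸ C) := (F.subgroupOf N).map π with hFh
  set Bh : Subgroup (↥N ⧸ C) := (B₁.subgroupOf N).map π with hBh
  set O := pCore p (↥N ⧸ C) with hO
  have hOn : O.Normal := inferInstance
  have hBO : Bh ≤ O := by
    rintro _ ⟨⟨g, hgN⟩, hg, rfl⟩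
    exact hst P₀ hP₀ g hgN (hq g hg)
  have hBhp : IsPGroup p Bh := IsPGroup.to_le (isPGroup_pCore (G := ↥N ⧸ C) p) hBO
  have hmap : (F.subgroupOf N).map N.subtype = F := Subgroup.map_subgroupOf_eq_of_le hFN
  have hmapB : (B₁.subgroupOf N).map N.subtype = B₁ := Subgroup.map_subgroupOf_eq_of_le hBN
  have hFt : F.subgroupOf N ≤ ⁅F.subgroupOf N, B₁.subgroupOf N⁆ := by
    have hinj : Function.Injective N.subtype := N.subtype_injective
    rw [← Subgroup.map_le_map_iff_of_injective hinj, Subgroup.map_commutator, hmap, hmapB]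
    exact hF
  have hFh2 : Fh ≤ ⁅Fh, Bh⁆ := by
    rw [hFh, hBh, ← Subgroup.map_commutator]
    exact Subgroup.map_mono hFt
  have hFO : Fh ≤ O := hFh2.trans ((Subgroup.commutator_mono le_rfl hBO).trans (Subgroup.commutator_le_right _ _))
  have hFhp : IsPGroup p Fh := IsPGroup.to_le (isPGroup_pCore (G := ↥N ⧸ C) p) hFO
  have hBFh : Bh ≤ Subgroup.normalizer (Fh : Set (↥N ⧸ C)) := by
    rintro _ ⟨⟨b, hbN⟩, hb, rfl⟩
    apply Cfsg.Agent.Lib.Replacement.mem_normalizer_of_forall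
    rintro _ ⟨⟨f, hfN⟩, hf, rfl⟩
    refine ⟨⟨b, hbN⟩ * ⟨f, hfN⟩ * (⟨b, hbN⟩ : ↥N)⁻¹, ?_, by rw [map_mul, map_mul, map_inv]⟩
    exact (Subgroup.mem_normalizer_iff.mp (hBF hb) f).mp hf
  have hbot : Fh = ⊥ := Cfsg.Agent.Lib.Replacement.eq_bot_of_le_comm_pgroup hFhp hBhp hBFh hFh2
  intro f hf
  have hf1 : π ⟨f, hFN hf⟩ ∈ Fh := ⟨⟨f, hFN hf⟩, hf, rfl⟩
  rw [hbot, Subgroup.mem_bot] at hf1
  have := (QuotientGroup.eq_one_iff _).mp hf1
  exact this

/-- The section form of the stability lemma. -/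
theorem spf_section {X : Type*} [Group X] [Finite X] (K R : Subgroup X) [hR : (R.subgroupOf K).Normal]
    (hst : IsNormalizerPStable p (↥K ⧸ R.subgroupOf K))
    (P₀ B₁ F : Subgroup X) (hP₀K : P₀ ≤ K) (hB₁K : B₁ ≤ K) (hFK : F ≤ K)
    (hP₀ : IsPGroup p P₀) (hB₁ : IsPGroup p B₁)
    (hBN : B₁ ≤ Subgroup.normalizer (P₀ : Set X)) (hFN : F ≤ Subgroup.normalizer (P₀ : Set X))
    (hBF : B₁ ≤ Subgroup.normalizer (F : Set X))
    (hq : ∀ g ∈ B₁, ∀ x ∈ P₀, ⁅⁅x, g⁆, g⁆ ∈ R)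
    (hF : F ≤ ⁅F, B₁⁆) : ∀ f ∈ F, ∀ x ∈ P₀, ⁅x, f⁆ ∈ R := by
  let π : ↥K →* ↥K ⧸ R.subgroupOf K := QuotientGroup.mk' _
  have hπs : Function.Surjective π := QuotientGroup.mk'_surjective _
  have hπ1 : ∀ x : ↥K, π x = 1 ↔ (x : X) ∈ R := by
    intro x
    exact (QuotientGroup.eq_one_iff _).trans Subgroup.mem_subgroupOf
  let M : Subgroup X → Subgroup (↥K ⧸ R.subgroupOf K) := fun U => (U.subgroupOf K).map π
  have hmem : ∀ {U : Subgroup X} {x : X} (hx : x ∈ K), x ∈ U → π ⟨x, hx⟩ ∈ M U := by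
    intro U x hx hxU
    exact ⟨⟨x, hx⟩, hxU, rfl⟩
  have hpg : ∀ {U : Subgroup X}, U ≤ K → IsPGroup p U → IsPGroup p (M U) := by
    intro U hUK hU
    have h1 : IsPGroup p (U.subgroupOf K) := by
      have := IsPGroup.comap_subtype (K := K) hU
      exact this
    exact h1.map π
  have hnorm : ∀ {U V : Subgroup X}, V ≤ K → V ≤ Subgroup.normalizer (U : Set X) →
      M V ≤ Subgroup.normalizer ((M U : Subgroup _) : Set (↥K ⧸ R.subgroupOf K)) := by
    rintro U V hVK hVU _ ⟨⟨v, hvK⟩, hv, rfl⟩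
    apply Cfsg.Agent.Lib.Replacement.mem_normalizer_of_forall
    rintro _ ⟨⟨u, huK⟩, hu, rfl⟩
    refine ⟨⟨v, hvK⟩ * ⟨u, huK⟩ * (⟨v, hvK⟩ : ↥K)⁻¹, ?_, by rw [map_mul, map_mul, map_inv]⟩
    exact (Subgroup.mem_normalizer_iff.mp (hVU hv) u).mp hu
  have hcomm : M F ≤ ⁅M F, M B₁⁆ := by
    have hmap : (F.subgroupOf K).map K.subtype = F := Subgroup.map_subgroupOf_eq_of_le hFK
    have hmapB : (B₁.subgroupOf K).map K.subtype = B₁ := Subgroup.map_subgroupOf_eq_of_le hB₁K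
    have hFt : F.subgroupOf K ≤ ⁅F.subgroupOf K, B₁.subgroupOf K⁆ := by
      have hinj : Function.Injective K.subtype := K.subtype_injective
      rw [← Subgroup.map_le_map_iff_of_injective hinj, Subgroup.map_commutator, hmap, hmapB]
      exact hF
    show (F.subgroupOf K).map π ≤ ⁅(F.subgroupOf K).map π, (B₁.subgroupOf K).map π⁆
    rw [← Subgroup.map_commutator]
    exact Subgroup.map_mono hFt
  have hquad : ∀ g ∈ M B₁, ⁅⁅M P₀, Subgroup.zpowers g⁆, Subgroup.zpowers g⁆ = ⊥ := by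
    rintro _ ⟨⟨g, hgK⟩, hg, rfl⟩
    apply Cfsg.Agent.Lib.StableW.quad_of_elem
    · rintro _ ⟨⟨u, huK⟩, hu, rfl⟩
      refine ⟨⟨g, hgK⟩ * ⟨u, huK⟩ * (⟨g, hgK⟩ : ↥K)⁻¹, ?_, by rw [map_mul, map_mul, map_inv]⟩
      exact (Subgroup.mem_normalizer_iff.mp (hBN hg) u).mp hu
    · rintro _ ⟨⟨u, huK⟩, hu, rfl⟩
      rw [← map_commutatorElement, ← map_commutatorElement, hπ1]
      exact hq g hg u hu
  have h := spf_abstract hst (M P₀) (M B₁) (M F) (hpg hP₀K hP₀) (hpg hB₁K hB₁) (hnorm hB₁K hBN)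
    (hnorm hFK hFN) (hnorm hB₁K hBF) hquad hcomm
  intro f hf x hx
  have h1 := h (hmem (hFK hf) hf)
  have h2 := Subgroup.mem_centralizer_iff.mp h1 _ (hmem (hP₀K hx) hx)
  have h3 : π ⟨⁅x, f⁆, K.mul_mem (K.mul_mem (K.mul_mem (hP₀K hx) (hFK hf)) (K.inv_mem (hP₀K hx))) (K.inv_mem (hFK hf))⟩ = 1 := by
    have e : (⟨⁅x, f⁆, K.mul_mem (K.mul_mem (K.mul_mem (hP₀K hx) (hFK hf)) (K.inv_mem (hP₀K hx))) (K.inv_mem (hFK hf))⟩ : ↥K) =
        ⁅(⟨x, hP₀K hx⟩ : ↥K), (⟨f, hFK hf⟩ : ↥K)⁆ := by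
      ext; simp [commutatorElement_def]
    rw [e, map_commutatorElement, commutatorElement_eq_one_iff_mul_comm]
    exact h2
  exact (hπ1 _).mp h3

/-- All sections are stable. -/
abbrev StAll (p : ℕ) (X : Type*) [Group X] : Prop :=
  ∀ (K R : Subgroup X) [(R.subgroupOf K).Normal], IsNormalizerPStable p (↥K ⧸ R.subgroupOf K)

/-- The preimage of `O_p(X/R / C(P₀/R))`. -/
theorem exists_Q {X : Type*} [Group X] [Finite X] (hst : StAll p X) (R : Subgroup X) [hRn : R.Normal]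
    (P₀ : Subgroup X) [hP₀n : P₀.Normal] (hP₀ : IsPGroup p P₀) :
    ∃ Q₁ : Subgroup X, Q₁.Normal ∧
      (∀ g, (∀ x ∈ P₀, ⁅⁅x, g⁆, g⁆ ∈ R) → g ∈ Q₁) ∧
      ∀ y ∈ Q₁, ∃ n : ℕ, ∀ x ∈ P₀, ⁅x, y ^ p ^ n⁆ ∈ R := by
  haveI hKn : (R.subgroupOf (⊤ : Subgroup X)).Normal := inferInstance
  have hZst := hst ⊤ R
  set Z := ↥(⊤ : Subgroup X) ⧸ R.subgroupOf (⊤ : Subgroup X) with hZ
  let π : X →* Z := (QuotientGroup.mk' (R.subgroupOf (⊤ : Subgroup X))).comp (Subgroup.topEquiv.symm.toMonoidHom)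
  have hπs : Function.Surjective π :=
    (QuotientGroup.mk'_surjective _).comp Subgroup.topEquiv.symm.surjective
  have hπ1 : ∀ x : X, π x = 1 ↔ x ∈ R := by
    intro x
    exact (QuotientGroup.eq_one_iff _).trans Subgroup.mem_subgroupOf
  set Ph : Subgroup Z := P₀.map π with hPh
  haveI hPhn : Ph.Normal := Subgroup.Normal.map hP₀n π hπs
  have hPhp : IsPGroup p Ph := hP₀.map π
  have hNt : Subgroup.normalizer (Ph : Set Z) = ⊤ := Subgroup.normalizer_eq_top_iff.mpr hPhn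
  have hNm : ∀ z : Z, z ∈ Subgroup.normalizer (Ph : Set Z) := fun z => by rw [hNt]; trivial
  set N := Subgroup.normalizer (Ph : Set Z) with hN
  set C := (Subgroup.centralizer (Ph : Set Z)).subgroupOf N with hC
  let ρ₀ : Z →* ↥N := (MonoidHom.id Z).codRestrict N hNm
  let ρ : X →* ↥N ⧸ C := (QuotientGroup.mk' C).comp (ρ₀.comp π)
  have hpc : (pCore p (↥N ⧸ C)).Normal := inferInstance
  refine ⟨(pCore p (↥N ⧸ C)).comap ρ, Subgroup.Normal.comap hpc ρ, ?_, ?_⟩
  · intro g hg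
    have hq : ⁅⁅Ph, Subgroup.zpowers (π g)⁆, Subgroup.zpowers (π g)⁆ = ⊥ := by
      apply Cfsg.Agent.Lib.StableW.quad_of_elem
      · intro v hv
        exact hPhn.conj_mem v hv _
      · rintro _ ⟨x, hx, rfl⟩
        rw [← map_commutatorElement, ← map_commutatorElement, hπ1]
        exact hg x hx
    exact hZst Ph hPhp (π g) (hNm _) hq
  · intro y hy
    obtain ⟨n, hn⟩ := isPGroup_pCore (G := ↥N ⧸ C) p ⟨ρ y, hy⟩
    refine ⟨n, fun x hx => ?_⟩
    have h1 : ρ (y ^ p ^ n) = 1 := by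
      have := congrArg Subtype.val hn
      simpa using this
    have h2 : ρ₀ (π (y ^ p ^ n)) ∈ C := (QuotientGroup.eq_one_iff _).mp h1
    have h3 : π (y ^ p ^ n) ∈ Subgroup.centralizer (Ph : Set Z) := h2
    have h4 := Subgroup.mem_centralizer_iff.mp h3 (π x) ⟨x, hx, rfl⟩
    rw [← hπ1, map_commutatorElement, commutatorElement_eq_one_iff_mul_comm]
    exact h4

/-- A coprime element is in a subgroup when one of its `p`-power powers is. -/
theorem mem_of_pow_mem_of_coprime {X : Type*} [Group X] {y : X} (hy : (orderOf y).Coprime p)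
    {H : Subgroup X} {n : ℕ} (h : y ^ p ^ n ∈ H) : y ∈ H := by
  have hc : (p ^ n).Coprime (orderOf y) := Nat.Coprime.pow_left n hy.symm
  obtain ⟨m, hm⟩ := exists_pow_eq_self_of_coprime hc
  rw [← hm]
  exact H.pow_mem h m

section Crit

variable {X : Type u} [Group X] [Finite X]

open Cfsg.Agent.Lib.KInfLocal (ZZ)

/-- The critical-type subgroups. -/
structure Crit (p : ℕ) (A : Subgroup X) : Prop where
  normal : A.Normal
  le : A ≤ pCore p X
  class2 : ⁅A, A⁆ ≤ Subgroup.centralizer (A : Set X)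
  comm : ⁅pCore p X, A⁆ ≤ ZZ A
  cent : ∀ y ∈ Subgroup.centralizer (A : Set X), (orderOf y).Coprime p → y = 1

/-- Critical subgroups exist in constrained groups. -/
theorem exists_crit (hC : Subgroup.centralizer ((pCore p X : Subgroup X) : Set X) ≤ pCore p X) :
    ∃ A : Subgroup X, Crit p A := by
  obtain ⟨A, hAn, hAT, -, -, hA2, hA3, hA4⟩ := Cfsg.Agent.Lib.KInfLocal.exists_critical X p
  refine ⟨A, hAn, hAT, hA2, hA3, ?_⟩
  intro y hy hyc
  haveI := hAn
  have hTn : (pCore p X).Normal := inferInstance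
  have hCn : (Subgroup.centralizer (A : Set X)).Normal := Subgroup.normal_centralizer
  have h1 : ∀ t ∈ pCore p X, ⁅t, y⁆ ∈ A := by
    intro t ht
    have h2 : ⁅t, y⁆ ∈ pCore p X ⊓ Subgroup.centralizer (A : Set X) := by
      constructor
      · have : y * t⁻¹ * y⁻¹ ∈ pCore p X := hTn.conj_mem _ (Subgroup.inv_mem _ ht) y
        have e : ⁅t, y⁆ = t * (y * t⁻¹ * y⁻¹) := by
          simp only [commutatorElement_def]; group
        rw [e]
        exact mul_mem ht this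
      · have e : ⁅t, y⁆ = (t * y * t⁻¹) * y⁻¹ := by
          simp only [commutatorElement_def]
        rw [e]
        exact Subgroup.mul_mem _ (hCn.conj_mem _ hy t) (Subgroup.inv_mem _ hy)
    rw [hA4] at h2
    exact h2.1
  have h3 := Cfsg.Agent.Lib.ChainStab.commute_of_stab (p := p) (U := A) (V := pCore p X)
    (IsPGroup.to_le (isPGroup_pCore p) hAT) hyc
    (fun u hu => (Subgroup.mem_centralizer_iff.mp hy u hu)) h1
  have h4 : y ∈ pCore p X := hC (Subgroup.mem_centralizer_iff.mpr fun t ht => (h3 t ht))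
  obtain ⟨m, hm⟩ := isPGroup_pCore (G := X) p ⟨y, h4⟩
  have hm' : y ^ p ^ m = 1 := by simpa using congrArg Subtype.val hm
  exact Cfsg.Agent.Lib.PResid.eq_one_of_pow_eq_one_of_coprime hm' (pow_orderOf_eq_one y) hyc

variable {A : Subgroup X}

theorem Crit.isPGroup (hA : Crit p A) : IsPGroup p A :=
  IsPGroup.to_le (isPGroup_pCore p) hA.le

theorem Crit.comm_mem (hA : Crit p A) {t a : X} (ht : t ∈ pCore p X) (ha : a ∈ A) : ⁅t, a⁆ ∈ ZZ A :=
  hA.comm (Subgroup.commutator_mem_commutator ht ha)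

theorem Crit.comm_self (hA : Crit p A) {a b : X} (ha : a ∈ A) (hb : b ∈ A) : ⁅a, b⁆ ∈ ZZ A :=
  hA.comm_mem (hA.le ha) hb

instance zz_normal [hA : A.Normal] : (ZZ A).Normal := by
  haveI : (Subgroup.centralizer (A : Set X)).Normal := Subgroup.normal_centralizer
  exact Subgroup.normal_inf_normal _ _

/-- **Ha**: a quadratic action on `A / Z(A)` and on `Z(A)` forces `O_p`. -/
theorem Crit.mem_core (hst : StAll p X) (hA : Crit p A) {g : X}
    (h1 : ∀ a ∈ A, ⁅⁅a, g⁆, g⁆ ∈ ZZ A) (h2 : ∀ v ∈ ZZ A, ⁅⁅v, g⁆, g⁆ = 1) : g ∈ pCore p X := by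
  haveI := hA.normal
  have hVp : IsPGroup p (ZZ A) := IsPGroup.to_le hA.isPGroup inf_le_left
  obtain ⟨Q₁, hQ₁n, hQ₁a, hQ₁b⟩ := exists_Q hst (⊥ : Subgroup X) (ZZ A) hVp
  obtain ⟨Q₂, hQ₂n, hQ₂a, hQ₂b⟩ := exists_Q hst (ZZ A) A hA.isPGroup
  haveI := hQ₁n
  haveI := hQ₂n
  have hQn : (Q₁ ⊓ Q₂).Normal := Subgroup.normal_inf_normal _ _
  have hQp : IsPGroup p (Q₁ ⊓ Q₂ : Subgroup X) := by
    apply Cfsg.Agent.Lib.ChainStab.isPGroup_of_forall_coprime_eq_one
    intro y hy hyc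
    obtain ⟨n, hn⟩ := hQ₁b y hy.1
    obtain ⟨m, hm⟩ := hQ₂b y hy.2
    have hV : y ∈ Subgroup.centralizer ((ZZ A : Subgroup X) : Set X) := by
      apply mem_of_pow_mem_of_coprime hyc (n := n)
      rw [Subgroup.mem_centralizer_iff]
      intro v hv
      have := hn v hv
      rw [Subgroup.mem_bot, commutatorElement_eq_one_iff_mul_comm] at this
      exact this
    have hAs : y ∈ Cfsg.Agent.Lib.ChainStab.stabSub A (ZZ A) := by
      apply mem_of_pow_mem_of_coprime hyc (n := m)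
      refine ⟨?_, hm⟩
      rw [Subgroup.normalizer_eq_top_iff.mpr inferInstance]
      trivial
    have h3 := Cfsg.Agent.Lib.ChainStab.commute_of_stab (p := p) (U := ZZ A) (V := A) hVp hyc
      (fun u hu => Subgroup.mem_centralizer_iff.mp hV u hu) hAs.2
    exact hA.cent y (Subgroup.mem_centralizer_iff.mpr fun a ha => h3 a ha) hyc
  exact Cfsg.Agent.Lib.PCore.le_pCore hQn hQp ⟨hQ₁a g fun x hx => by
    rw [Subgroup.mem_bot]; exact h2 x hx, hQ₂a g h1⟩

/-- An element normalizing two subgroups normalizes their join. -/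
theorem mem_normalizer_sup {H K : Subgroup X} {g : X} (hH : ∀ x ∈ H, g * x * g⁻¹ ∈ H ⊔ K)
    (hK : ∀ x ∈ K, g * x * g⁻¹ ∈ H ⊔ K) : g ∈ Subgroup.normalizer ((H ⊔ K : Subgroup X) : Set X) := by
  apply Cfsg.Agent.Lib.Replacement.mem_normalizer_of_forall
  have h : H ⊔ K ≤ (H ⊔ K).comap (MulAut.conj g).toMonoidHom := by
    refine sup_le (fun x hx => ?_) (fun x hx => ?_)
    · exact hH x hx
    · exact hK x hx
  exact fun x hx => h hx

/-- Iterated commutators are normalized by the acting group. -/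
theorem iter_normalized (E B : Subgroup X) [hE : E.Normal] (i : ℕ) :
    B ≤ Subgroup.normalizer ((iterCommutator E B i : Subgroup X) : Set X) := by
  cases i with
  | zero =>
    show B ≤ Subgroup.normalizer (E : Set X)
    rw [Subgroup.normalizer_eq_top_iff.mpr hE]
    exact le_top
  | succ i => exact Subgroup.normalizer_commutator_ge_right _ _

theorem iter_succ_le (E B : Subgroup X) [hE : E.Normal] (i : ℕ) :
    iterCommutator E B (i + 1) ≤ iterCommutator E B i := by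
  induction i with
  | zero => exact Subgroup.commutator_le_left E B
  | succ i ih => exact Subgroup.commutator_mono ih le_rfl

/-- **The subnormal step**: if the iterated commutators die, `[E, B]` is in `O_p`. -/
theorem comm_le_core_of_iter (E B : Subgroup X) [hE : E.Normal] (hBp : IsPGroup p B) (n : ℕ)
    (h : iterCommutator E B n = ⊥) : ⁅E, B⁆ ≤ pCore p X := by
  set Y := E ⊔ B with hY
  have hEY : E ≤ Y := le_sup_left
  have hBY : B ≤ Y := le_sup_right
  let U : ℕ → Subgroup X := fun i => iterCommutator E B i ⊔ B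
  have hU0 : U 0 = Y := rfl
  have hUY : ∀ i, U i ≤ Y := fun i => sup_le ((Cfsg.Agent.Lib.EngelChief.iter_le E B i).trans hEY) hBY
  have hU : ∀ i, U (i + 1) ≤ U i := fun i => sup_le_sup_right (iter_succ_le E B i) B
  have hUn : ∀ i, U i ≤ Subgroup.normalizer ((U (i + 1) : Subgroup X) : Set X) := by
    intro i
    refine sup_le ?_ ?_
    · intro x hx
      apply mem_normalizer_sup
      · intro y hy
        exact Subgroup.mem_sup_left
          ((Subgroup.mem_normalizer_iff.mp (Subgroup.normalizer_commutator_ge_left _ _ hx) y).mp hy)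
      · intro b hb
        have e : x * b * x⁻¹ = ⁅x, b⁆ * b := by
          simp only [commutatorElement_def]; group
        rw [e]
        exact Subgroup.mul_mem _ (Subgroup.mem_sup_left (Subgroup.commutator_mem_commutator hx hb))
          (Subgroup.mem_sup_right hb)
    · intro x hx
      apply mem_normalizer_sup
      · intro y hy
        exact Subgroup.mem_sup_left ((Subgroup.mem_normalizer_iff.mp (iter_normalized E B (i + 1) hx) y).mp hy)
      · intro b hb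
        exact Subgroup.mem_sup_right (B.mul_mem (B.mul_mem hx hb) (B.inv_mem hx))
  have hsub : ∀ i, ((U i).subgroupOf Y).IsSubnormal := by
    intro i
    induction i with
    | zero =>
      rw [hU0, Subgroup.subgroupOf_self]
      exact Subgroup.IsSubnormal.top
    | succ i ih =>
      refine Subgroup.IsSubnormal.step _ _ (Subgroup.comap_mono (hU i)) ih ?_
      -- normality of `U (i+1)` in `U i`, in `Y`
      have hle : (U (i + 1)).subgroupOf Y ≤ (U i).subgroupOf Y := Subgroup.comap_mono (hU i)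
      refine (Subgroup.normal_subgroupOf_iff_le_normalizer hle).mpr ?_
      rintro ⟨x, hxY⟩ hx
      have hx' : x ∈ U i := hx
      apply Cfsg.Agent.Lib.Replacement.mem_normalizer_of_forall
      rintro ⟨y, hyY⟩ hy
      exact (Subgroup.mem_normalizer_iff.mp (hUn i hx') y).mp hy
  have hB : B.subgroupOf Y ≤ pCore p ↥Y := by
    have e : U n = B := by
      show iterCommutator E B n ⊔ B = B
      rw [h, bot_sup_eq]
    have h1 := hsub n
    rw [e] at h1
    refine Cfsg.Agent.Lib.PResid.le_pCore_of_isSubnormal h1 ?_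
    exact IsPGroup.comap_subtype hBp
  rw [Subgroup.commutator_le]
  intro e he b hb
  -- `D` : the part of `O_p(Y)` in `E`
  let D : Subgroup E := ((pCore p ↥Y).map Y.subtype).subgroupOf E
  have hDp : IsPGroup p D := by
    have h1 : IsPGroup p ((pCore p ↥Y).map Y.subtype) := (isPGroup_pCore p).map _
    exact IsPGroup.comap_subtype h1
  have hDn : D.Normal := by
    refine ⟨fun d hd g => ?_⟩
    obtain ⟨⟨y, hyY⟩, hy, hyd⟩ := hd
    have hYn : (pCore p ↥Y).Normal := inferInstance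
    have h1 := hYn.conj_mem _ hy ⟨(g : X), hEY g.2⟩
    refine ⟨_, h1, ?_⟩
    simp only [Subgroup.coe_subtype, Subgroup.coe_mul, InvMemClass.coe_inv, MulMemClass.coe_mul]
    simp only [Subgroup.coe_subtype] at hyd
    rw [hyd]
  have hDle : D ≤ pCore p ↥E := Cfsg.Agent.Lib.PCore.le_pCore hDn hDp
  have hmem : ⁅e, b⁆ ∈ E := Subgroup.commutator_le_left E B (Subgroup.commutator_mem_commutator he hb)
  have hd : (⟨⁅e, b⁆, hmem⟩ : E) ∈ D := by
    have hYn : (pCore p ↥Y).Normal := inferInstance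
    have hb' : (⟨b, hBY hb⟩ : Y) ∈ pCore p ↥Y := hB hb
    have e1 : ⁅(⟨e, hEY he⟩ : Y), (⟨b, hBY hb⟩ : Y)⁆ ∈ pCore p ↥Y := by
      rw [commutatorElement_def]
      exact Subgroup.mul_mem _ (hYn.conj_mem _ hb' _) (Subgroup.inv_mem _ hb')
    exact ⟨_, e1, rfl⟩
  have h2 := hDle hd
  have h3 : ⁅e, b⁆ ∈ (pCore p ↥E).map E.subtype := ⟨_, h2, rfl⟩
  rw [Cfsg.Agent.Lib.PCore.map_pCore_of_normal] at h3
  exact h3.2

/-- **The nilpotent step**. -/
theorem le_core_of_central_mod (Q₁ E B : Subgroup X) [hQ : Q₁.Normal] [hE : E.Normal] (hBp : IsPGroup p B)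
    (hBQ : B ≤ Q₁) (hQE : ∀ y ∈ Q₁, ∃ n : ℕ, y ^ p ^ n ∈ E) (hEB : ⁅E, B⁆ ≤ pCore p X) :
    B ≤ pCore p X := by
  set T := pCore p X with hT
  haveI hTn : T.Normal := inferInstance
  let π : X →* X ⧸ T := QuotientGroup.mk' T
  have hπs : Function.Surjective π := QuotientGroup.mk'_surjective T
  have hπ1 : ∀ x : X, π x = 1 ↔ x ∈ T := fun x => QuotientGroup.eq_one_iff x
  set Eh := E.map π with hEh
  have hEhn : Eh.Normal := Subgroup.Normal.map hE π hπs
  have hCn : (Subgroup.centralizer (Eh : Set (X ⧸ T))).Normal := Subgroup.normal_centralizer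
  have hQhn : (Q₁.map π).Normal := Subgroup.Normal.map hQ π hπs
  set Zh := Q₁.map π ⊓ Subgroup.centralizer (Eh : Set (X ⧸ T)) with hZh
  have hZhn : Zh.Normal := Subgroup.normal_inf_normal _ _
  have hBZh : B.map π ≤ Zh := by
    rintro _ ⟨b, hb, rfl⟩
    refine ⟨⟨b, hBQ hb, rfl⟩, Subgroup.mem_centralizer_iff.mpr ?_⟩
    rintro _ ⟨e, he, rfl⟩
    rw [← map_mul, ← map_mul]
    have h1 : ⁅e, b⁆ ∈ T := hEB (Subgroup.commutator_mem_commutator he hb)
    have h2 : π ⁅e, b⁆ = 1 := (hπ1 _).mpr h1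
    rw [map_commutatorElement, commutatorElement_eq_one_iff_mul_comm] at h2
    rw [map_mul, map_mul]
    exact h2
  -- the central quotient
  haveI hD : (Eh.subgroupOf Zh).Normal := inferInstance
  let f : ↥Zh →* ↥Zh ⧸ Eh.subgroupOf Zh := QuotientGroup.mk' _
  have hquot : IsPGroup p (↥Zh ⧸ Eh.subgroupOf Zh) := by
    intro q
    obtain ⟨z, rfl⟩ := QuotientGroup.mk_surjective q
    obtain ⟨⟨y, hy, hyz⟩, -⟩ := z.2
    obtain ⟨n, hn⟩ := hQE y hy
    refine ⟨n, ?_⟩
    rw [← QuotientGroup.mk_pow, QuotientGroup.eq_one_iff, Subgroup.mem_subgroupOf]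
    simp only [Subgroup.coe_pow]
    rw [← hyz, ← map_pow]
    exact ⟨_, hn, rfl⟩
  haveI hnilq : Group.IsNilpotent (↥Zh ⧸ Eh.subgroupOf Zh) := hquot.isNilpotent
  haveI hnil : Group.IsNilpotent ↥Zh := by
    refine Subgroup.isNilpotent_of_ker_le_center f ?_
    intro z hz
    have hz1 : (z : X ⧸ T) ∈ Eh := by
      have := (QuotientGroup.eq_one_iff _).mp hz
      exact this
    rw [Subgroup.mem_center_iff]
    intro w
    apply Subtype.ext
    exact (Subgroup.mem_centralizer_iff.mp w.2.2 _ hz1).symm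
  -- Sylow normal
  have hBhp : IsPGroup p ((B.map π).subgroupOf Zh) := IsPGroup.comap_subtype (hBp.map π)
  obtain ⟨P, hP⟩ := hBhp.exists_le_sylow
  have hPn : (P : Subgroup ↥Zh).Normal := inferInstance
  have hPO : (P : Subgroup ↥Zh) ≤ pCore p ↥Zh := Cfsg.Agent.Lib.PCore.le_pCore hPn P.isPGroup'
  have hbot : pCore p (X ⧸ T) = ⊥ := pCore_quotient_pCore p
  intro b hb
  have h1 : (⟨π b, hBZh ⟨b, hb, rfl⟩⟩ : ↥Zh) ∈ pCore p ↥Zh := hPO (hP ⟨b, hb, rfl⟩)
  have h2 : π b ∈ (pCore p ↥Zh).map Zh.subtype := ⟨_, h1, rfl⟩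
  rw [Cfsg.Agent.Lib.PCore.map_pCore_of_normal, hbot] at h2
  exact (hπ1 b).mp h2.2

theorem comm_mul_left_central {u v a : X} (h : Commute u ⁅v, a⁆) : ⁅u * v, a⁆ = ⁅v, a⁆ * ⁅u, a⁆ := by
  have e : ⁅u * v, a⁆ = (u * ⁅v, a⁆ * u⁻¹) * ⁅u, a⁆ := by
    simp only [commutatorElement_def]; group
  rw [e, h.eq, mul_inv_cancel_right]

theorem comm_inv_left_central {v a : X} (h : Commute v ⁅v, a⁆) : ⁅v⁻¹, a⁆ = ⁅v, a⁆⁻¹ := by
  have h1 : Commute v⁻¹ ⁅v, a⁆ := h.inv_left
  have h2 := comm_mul_left_central h1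
  rw [inv_mul_cancel, commutatorElement_one_left] at h2
  exact (eq_inv_of_mul_eq_one_right h2.symm)

theorem comm_mul_right_central {x a y : X} (h : Commute a ⁅x, y⁆) : ⁅x, a * y⁆ = ⁅x, a⁆ * ⁅x, y⁆ := by
  have e : ⁅x, a * y⁆ = ⁅x, a⁆ * (a * ⁅x, y⁆ * a⁻¹) := by
    simp only [commutatorElement_def]; group
  rw [e, h.eq, mul_inv_cancel_right]

theorem comm_conj (b x c : X) : b * ⁅x, c⁆ * b⁻¹ = ⁅b * x * b⁻¹, b * c * b⁻¹⁆ := by
  simp only [commutatorElement_def]; group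

/-- The subgroup `{x ∈ A : [x, A] ≤ C₀}`. -/
def RR (A C₀ : Subgroup X) (h : C₀ ≤ Subgroup.centralizer (A : Set X)) : Subgroup X where
  carrier := {x | x ∈ A ∧ ∀ a ∈ A, ⁅x, a⁆ ∈ C₀}
  one_mem' := ⟨A.one_mem, fun a _ => by rw [commutatorElement_one_left]; exact C₀.one_mem⟩
  mul_mem' := by
    rintro x y ⟨hx, hx'⟩ ⟨hy, hy'⟩
    refine ⟨A.mul_mem hx hy, fun a ha => ?_⟩
    have hc : Commute x ⁅y, a⁆ := (Subgroup.mem_centralizer_iff.mp (h (hy' a ha)) x hx)
    rw [comm_mul_left_central hc]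
    exact C₀.mul_mem (hy' a ha) (hx' a ha)
  inv_mem' := by
    rintro x ⟨hx, hx'⟩
    refine ⟨A.inv_mem hx, fun a ha => ?_⟩
    have hc : Commute x ⁅x, a⁆ := (Subgroup.mem_centralizer_iff.mp (h (hx' a ha)) x hx)
    rw [comm_inv_left_central hc]
    exact C₀.inv_mem (hx' a ha)

theorem mem_RR {C₀ : Subgroup X} {h : C₀ ≤ Subgroup.centralizer (A : Set X)} {x : X} :
    x ∈ RR A C₀ h ↔ x ∈ A ∧ ∀ a ∈ A, ⁅x, a⁆ ∈ C₀ := Iff.rfl

/-- Elements normalizing `A` and centralizing `C₀` normalize `RR`. -/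
theorem mem_normalizer_RR {C₀ : Subgroup X} {h : C₀ ≤ Subgroup.centralizer (A : Set X)} {e : X}
    (he : e ∈ Subgroup.normalizer (A : Set X)) (he' : e ∈ Subgroup.centralizer (C₀ : Set X)) :
    e ∈ Subgroup.normalizer ((RR A C₀ h : Subgroup X) : Set X) := by
  apply Cfsg.Agent.Lib.Replacement.mem_normalizer_of_forall
  rintro x ⟨hx, hx'⟩
  refine ⟨(Subgroup.mem_normalizer_iff.mp he x).mp hx, fun a ha => ?_⟩
  have ha' : e⁻¹ * a * e ∈ A := by
    have := (Subgroup.mem_normalizer_iff.mp (Subgroup.inv_mem _ he) a).mp ha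
    simpa using this
  have h1 := hx' _ ha'
  have h2 : e * ⁅x, e⁻¹ * a * e⁆ * e⁻¹ = ⁅x, e⁻¹ * a * e⁆ := by
    rw [← Subgroup.mem_centralizer_iff.mp he' _ h1]
    group
  have h3 := comm_conj e x (e⁻¹ * a * e)
  have h4 : e * (e⁻¹ * a * e) * e⁻¹ = a := by group
  rw [h4] at h3
  rw [← h3, h2]
  exact h1

/-- **The commutator computation.** -/
theorem key_mem (hA : Crit p A) {B : Subgroup X} (hAB : A ≤ Subgroup.normalizer (B : Set X))
    (hB2 : ⁅B, B⁆ ≤ ZZ B) (hBV : ⁅B, ZZ A⁆ ≤ ZZ B) {a a' b : X} (ha : a ∈ A) (ha' : a' ∈ A) (hb : b ∈ B) :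
    ⁅⁅⁅a, b⁆, b⁆, a'⁆ ∈ ZZ A ⊓ Subgroup.centralizer (B : Set X) := by
  haveI hAn := hA.normal
  have hconj : ∀ {g c : X}, g ∈ A → c ∈ B → g * c * g⁻¹ ∈ B := fun hg hc =>
    (Subgroup.mem_normalizer_iff.mp (hAB hg) _).mp hc
  have hZc : ∀ {z g : X}, z ∈ ZZ A → g ∈ A → Commute g z := fun {z g} hz hg =>
    (Subgroup.mem_centralizer_iff.mp hz.2 g hg)
  have hZ0 : ∀ {z : X}, z ∈ ZZ A → z ∈ ZZ B → z ∈ ZZ A ⊓ Subgroup.centralizer (B : Set X) :=
    fun {_} h1 h2 => ⟨h1, h2.2⟩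
  set x := ⁅a, b⁆ with hx
  have hxA : x ∈ A := by
    rw [hx, commutatorElement_def]
    have : a * b * a⁻¹ * b⁻¹ = a * (b * a⁻¹ * b⁻¹) := by group
    rw [this]
    exact A.mul_mem ha (hAn.conj_mem _ (A.inv_mem ha) b)
  have hxB : x ∈ B := by
    rw [hx, commutatorElement_def]
    exact B.mul_mem (hconj ha hb) (B.inv_mem hb)
  set v := b * x * b⁻¹ with hv
  have hvA : v ∈ A := hAn.conj_mem _ hxA b
  have hvB : v ∈ B := B.mul_mem (B.mul_mem hb hxB) (B.inv_mem hb)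
  have e1 : ⁅x, b⁆ = x * v⁻¹ := by
    rw [hv, commutatorElement_def]; group
  have e2 : ⁅x * v⁻¹, a'⁆ = ⁅v, a'⁆⁻¹ * ⁅x, a'⁆ := by
    have hvi : ⁅v⁻¹, a'⁆ ∈ ZZ A := hA.comm_self (A.inv_mem hvA) ha'
    rw [comm_mul_left_central (hZc hvi hxA), comm_inv_left_central (hZc (hA.comm_self hvA ha') hvA)]
  set y := a'⁻¹ * (b⁻¹ * a' * b) with hy
  have hbb : b⁻¹ * a' * b ∈ A := by
    have := hAn.conj_mem _ ha' b⁻¹
    simpa using this
  have hyA : y ∈ A := A.mul_mem (A.inv_mem ha') hbb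
  have hyB : y ∈ B := by
    have e : y = (a'⁻¹ * b⁻¹ * a'⁻¹⁻¹) * b := by rw [hy]; group
    rw [e]
    exact B.mul_mem (hconj (A.inv_mem ha') (B.inv_mem hb)) hb
  have e3 : ⁅v, a'⁆ = b * (⁅x, a'⁆ * ⁅x, y⁆) * b⁻¹ := by
    have h1 : Commute a' ⁅x, y⁆ := hZc (hA.comm_self hxA hyA) ha'
    rw [← comm_mul_right_central h1, comm_conj]
    have e4 : a' * y = b⁻¹ * a' * b := by rw [hy]; group
    rw [e4]
    have e5 : b * (b⁻¹ * a' * b) * b⁻¹ = a' := by group
    rw [e5]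
  set w := ⁅x, a'⁆ with hw
  set s := ⁅x, y⁆ with hs
  have hwV : w ∈ ZZ A := hA.comm_self hxA ha'
  have hsV : s ∈ ZZ A := hA.comm_self hxA hyA
  have hsB : s ∈ ZZ B := hB2 (Subgroup.commutator_mem_commutator hxB hyB)
  have hsb : b * s * b⁻¹ = s := by
    have := Subgroup.mem_centralizer_iff.mp hsB.2 b hb
    rw [this]; group
  have e6 : ⁅⁅x, b⁆, a'⁆ = s⁻¹ * ⁅b, w⁻¹⁆ := by
    rw [e1, e2, e3]
    have e7 : b * (w * s) * b⁻¹ = (b * w * b⁻¹) * (b * s * b⁻¹) := by group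
    rw [e7, hsb]
    simp only [commutatorElement_def]
    group
  rw [e6]
  refine Subgroup.mul_mem _ (Subgroup.inv_mem _ (hZ0 hsV hsB)) (hZ0 ?_ (hBV (Subgroup.commutator_mem_commutator hb (Subgroup.inv_mem _ hwV))))
  rw [commutatorElement_def]
  exact Subgroup.mul_mem _ (Subgroup.Normal.conj_mem inferInstance _ (Subgroup.inv_mem _ hwV) b)
    (Subgroup.inv_mem _ (Subgroup.inv_mem _ hwV))

/-- **The main local theorem**: members of the lower-star family relative to a subgroup containing `A`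
lie in `O_p`. -/
theorem Crit.le_core_of_family (hst : StAll p X) (hA : Crit p A) (B : Subgroup X) (hBp : IsPGroup p B)
    (hAB : A ≤ Subgroup.normalizer (B : Set X)) (hB2 : ⁅B, B⁆ ≤ Subgroup.centralizer (B : Set X))
    (hfam : ∀ A' : Subgroup X, ⁅A', A'⁆ ≤ Subgroup.centralizer (A' : Set X) → A' ≤ A →
      B ≤ Subgroup.normalizer (A' : Set X) → ⁅B, ⁅A', A'⁆⁆ = ⊥ → ⁅⁅ZZ B, A'⁆, A'⁆ = ⊥ → ⁅B, A'⁆ ≤ ZZ B) :
    B ≤ pCore p X := by
  classical
  haveI hAn := hA.normal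
  set V := ZZ A with hV
  haveI hVn : V.Normal := inferInstance
  have hVA : V ≤ A := inf_le_left
  have hVp : IsPGroup p V := IsPGroup.to_le hA.isPGroup hVA
  have hBN : B ≤ Subgroup.normalizer (A : Set X) := by
    rw [Subgroup.normalizer_eq_top_iff.mpr hAn]; exact le_top
  have hBNV : B ≤ Subgroup.normalizer (V : Set X) := by
    rw [Subgroup.normalizer_eq_top_iff.mpr hVn]; exact le_top
  have hB2' : ⁅B, B⁆ ≤ ZZ B := le_inf (Subgroup.commutator_le_self B) hB2
  -- elements of `ZZ B` commute with `B`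
  have hZc : ∀ {z g : X}, z ∈ ZZ B → g ∈ B → ⁅z, g⁆ = 1 := fun {z g} hz hg => by
    rw [commutatorElement_eq_one_iff_mul_comm]
    exact (Subgroup.mem_centralizer_iff.mp hz.2 g hg).symm
  -- S1
  have hZT : ZZ B ≤ pCore p X := by
    intro z hz
    have hzB : z ∈ B := hz.1
    have key : ∀ a ∈ A, ⁅⁅a, z⁆, z⁆ = 1 := by
      intro a ha
      have h1 : ⁅a, z⁆ ∈ B := by
        rw [commutatorElement_def]
        exact B.mul_mem ((Subgroup.mem_normalizer_iff.mp (hAB ha) _).mp hzB) (B.inv_mem hzB)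
      have h2 := Subgroup.mem_centralizer_iff.mp hz.2 _ h1
      rw [commutatorElement_eq_one_iff_mul_comm]
      exact h2
    refine hA.mem_core hst (fun a ha => ?_) (fun v hv => key v (hVA hv))
    rw [key a ha]
    exact Subgroup.one_mem _
  -- S2
  have hVV : ⁅V, V⁆ = ⊥ := Cfsg.Agent.Lib.KInfLocal.zz_comm_eq_bot A
  have hBV : ⁅B, V⁆ ≤ ZZ B := by
    refine hfam V ?_ hVA hBNV ?_ ?_
    · rw [hVV]; exact bot_le
    · rw [hVV, Subgroup.commutator_bot_right]
    · have h1 : ⁅ZZ B, V⁆ ≤ V := Subgroup.commutator_le_right _ _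
      refine le_antisymm ?_ bot_le
      rw [← hVV]
      exact Subgroup.commutator_mono h1 le_rfl
  -- `E`
  set E := Subgroup.centralizer (V : Set X) with hE
  haveI hEn : E.Normal := Subgroup.normal_centralizer
  have hAE : A ≤ E := by
    intro a ha
    rw [hE, Subgroup.mem_centralizer_iff]
    intro v hv
    exact (Subgroup.mem_centralizer_iff.mp hv.2 a ha).symm
  obtain ⟨Q₁, hQ₁n, hQ₁a, hQ₁b⟩ := exists_Q hst (⊥ : Subgroup X) V hVp
  haveI := hQ₁n
  have hBQ : B ≤ Q₁ := by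
    intro b hb
    apply hQ₁a
    intro v hv
    rw [Subgroup.mem_bot]
    have h1 : ⁅b, v⁆ ∈ ZZ B := hBV (Subgroup.commutator_mem_commutator hb hv)
    have h2 : ⁅v, b⁆ ∈ ZZ B := by
      rw [← commutatorElement_inv]
      exact Subgroup.inv_mem _ h1
    exact hZc h2 hb
  have hQE : ∀ y ∈ Q₁, ∃ n : ℕ, y ^ p ^ n ∈ E := by
    intro y hy
    obtain ⟨n, hn⟩ := hQ₁b y hy
    refine ⟨n, ?_⟩
    rw [hE, Subgroup.mem_centralizer_iff]
    intro v hv
    have := hn v hv
    rw [Subgroup.mem_bot, commutatorElement_eq_one_iff_mul_comm] at this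
    exact this
  -- the stable term
  obtain ⟨n, hn⟩ : ∃ n : ℕ, iterCommutator E B (n + 1) = iterCommutator E B n := by
    have h2 : WellFounded ((· < ·) : Subgroup X → Subgroup X → Prop) := wellFounded_lt
    obtain ⟨m, ⟨n, rfl⟩, hm⟩ := h2.has_min (Set.range (iterCommutator E B)) ⟨_, ⟨0, rfl⟩⟩
    refine ⟨n, ?_⟩
    by_contra hne
    exact hm _ ⟨n + 1, rfl⟩ (lt_of_le_of_ne (iter_succ_le E B n) hne)
  set F := iterCommutator E B n with hF
  have hFE : F ≤ E := Cfsg.Agent.Lib.EngelChief.iter_le E B n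
  have hFB : F ≤ ⁅F, B⁆ := hn.ge
  have hBF : B ≤ Subgroup.normalizer (F : Set X) := iter_normalized E B n
  -- `R̃`
  set C₀ := V ⊓ Subgroup.centralizer (B : Set X) with hC₀
  have hC₀A : C₀ ≤ Subgroup.centralizer (A : Set X) := inf_le_left.trans inf_le_right
  set R := RR A C₀ hC₀A with hR
  have hRA : R ≤ A := fun x hx => hx.1
  have hVR : V ≤ R := by
    intro v hv
    refine ⟨hVA hv, fun a ha => ?_⟩
    have h1 : ⁅v, a⁆ = 1 := by
      rw [commutatorElement_eq_one_iff_mul_comm]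
      exact (Subgroup.mem_centralizer_iff.mp hv.2 a ha).symm
    rw [h1]
    exact Subgroup.one_mem _
  have hER : E ≤ Subgroup.normalizer (R : Set X) := by
    intro e he
    refine mem_normalizer_RR ?_ ?_
    · rw [Subgroup.normalizer_eq_top_iff.mpr hAn]; trivial
    · rw [Subgroup.mem_centralizer_iff]
      intro c hc
      exact (Subgroup.mem_centralizer_iff.mp he c hc.1)
  have hBR : B ≤ Subgroup.normalizer (R : Set X) := by
    intro b hb
    refine mem_normalizer_RR ?_ ?_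
    · rw [Subgroup.normalizer_eq_top_iff.mpr hAn]; trivial
    · rw [Subgroup.mem_centralizer_iff]
      intro c hc
      exact (Subgroup.mem_centralizer_iff.mp hc.2 b hb).symm
  set K := E ⊔ B with hK
  have hRK : R ≤ K := (hRA.trans hAE).trans le_sup_left
  haveI hRKn : (R.subgroupOf K).Normal :=
    (Subgroup.normal_subgroupOf_iff_le_normalizer hRK).mpr (sup_le hER hBR)
  have hFN : F ≤ Subgroup.normalizer (A : Set X) := by
    rw [Subgroup.normalizer_eq_top_iff.mpr hAn]; exact le_top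
  -- S5
  have h5 : ∀ f ∈ F, ∀ x ∈ A, ⁅x, f⁆ ∈ R := by
    refine spf_section K R (hst K R) A B F ((hAE).trans le_sup_left) le_sup_right (hFE.trans le_sup_left)
      hA.isPGroup hBp hBN hFN hBF ?_ hFB
    intro b hb a ha
    refine ⟨?_, fun a' ha' => key_mem hA hAB hB2' hBV ha ha' hb⟩
    have h1 : ∀ c ∈ A, ⁅c, b⁆ ∈ A := by
      intro c hc
      rw [commutatorElement_def]
      have : c * b * c⁻¹ * b⁻¹ = c * (b * c⁻¹ * b⁻¹) := by group
      rw [this]
      exact A.mul_mem hc (hAn.conj_mem _ (A.inv_mem hc) b)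
    exact h1 _ (h1 a ha)
  -- S6
  have hRR : ⁅R, R⁆ ≤ C₀ := by
    rw [Subgroup.commutator_le]
    intro x hx y hy
    exact hx.2 y (hRA hy)
  have hRp : IsPGroup p R := IsPGroup.to_le hA.isPGroup hRA
  have hBR2 : ⁅B, R⁆ ≤ ZZ B := by
    refine hfam R ?_ hRA hBR ?_ ?_
    · intro c hc
      rw [Subgroup.mem_centralizer_iff]
      intro r hr
      exact Subgroup.mem_centralizer_iff.mp (hC₀A (hRR hc)) r (hRA hr)
    · rw [Subgroup.commutator_eq_bot_iff_le_centralizer]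
      intro b hb
      rw [Subgroup.mem_centralizer_iff]
      intro c hc
      exact (Subgroup.mem_centralizer_iff.mp (hRR hc).2 b hb).symm
    · have h1 : ⁅ZZ B, R⁆ ≤ V := (Subgroup.commutator_mono hZT hRA).trans hA.comm
      have h2 : ⁅V, R⁆ = ⊥ := by
        rw [Subgroup.commutator_eq_bot_iff_le_centralizer]
        intro v hv
        rw [Subgroup.mem_centralizer_iff]
        intro r hr
        exact (Subgroup.mem_centralizer_iff.mp hv.2 r (hRA hr))
      refine le_antisymm ?_ bot_le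
      rw [← h2]
      exact Subgroup.commutator_mono h1 le_rfl
  -- S7
  have h7 : ∀ f ∈ F, ∀ x ∈ R, ⁅x, f⁆ ∈ (⊥ : Subgroup X) := by
    refine spf_section ⊤ ⊥ (hst ⊤ ⊥) R B F le_top le_top le_top hRp hBp hBR (hFE.trans hER) hBF ?_ hFB
    intro b hb x hx
    rw [Subgroup.mem_bot]
    have h1 : ⁅b, x⁆ ∈ ZZ B := hBR2 (Subgroup.commutator_mem_commutator hb hx)
    have h2 : ⁅x, b⁆ ∈ ZZ B := by
      rw [← commutatorElement_inv]
      exact Subgroup.inv_mem _ h1
    exact hZc h2 hb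
  -- S8
  obtain ⟨k, hk⟩ := IsPGroup.iff_card.mp hA.isPGroup
  have hAexp : ∀ a ∈ A, a ^ p ^ k = 1 := by
    intro a ha
    have := pow_card_eq_one' (x := (⟨a, ha⟩ : A))
    rw [hk] at this
    simpa using congrArg Subtype.val this
  have hFp : IsPGroup p F := by
    apply Cfsg.Agent.Lib.ChainStab.isPGroup_of_forall_coprime_eq_one
    intro y hy hyc
    refine hA.cent y ?_ hyc
    apply mem_of_pow_mem_of_coprime hyc (n := k)
    rw [Subgroup.mem_centralizer_iff]
    intro a ha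
    have h1 := h7 y hy _ (h5 y hy a ha)
    rw [Subgroup.mem_bot] at h1
    have h2 : y * ⁅a, y⁆ * y⁻¹ = ⁅a, y⁆ := by
      rw [commutatorElement_eq_one_iff_mul_comm] at h1
      rw [← h1]
      group
    have h3 := comm_pow_of_quad h2 (p ^ k)
    have h4 : ⁅a, y⁆ ∈ A := h5 y hy a ha |>.1
    rw [hAexp _ h4, commutatorElement_eq_one_iff_mul_comm] at h3
    exact h3
  have hFbot : F = ⊥ := Cfsg.Agent.Lib.Replacement.eq_bot_of_le_comm_pgroup hFp hBp hBF hFB
  exact le_core_of_central_mod Q₁ E B hBp hBQ hQE (comm_le_core_of_iter E B hBp n hFbot)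

/-- `H₁` on the ambient level. -/
theorem Crit.le_core_one (hst : StAll p X) (hA : Crit p A) (A' : Subgroup X)
    (h1 : A ≤ Subgroup.normalizer (A' : Set X)) (h2 : ⁅A, ⁅A', A'⁆⁆ = ⊥) (h3 : ⁅⁅ZZ A, A'⁆, A'⁆ = ⊥) :
    A' ≤ pCore p X := by
  haveI hAn := hA.normal
  intro g hg
  refine hA.mem_core hst (fun a ha => ⟨?_, ?_⟩) (fun v hv => ?_)
  · have h4 : ∀ c ∈ A, ⁅c, g⁆ ∈ A := by
      intro c hc
      rw [commutatorElement_def]
      have : c * g * c⁻¹ * g⁻¹ = c * (g * c⁻¹ * g⁻¹) := by group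
      rw [this]
      exact A.mul_mem hc (hAn.conj_mem _ (A.inv_mem hc) g)
    exact h4 _ (h4 a ha)
  · have h4 : ⁅a, g⁆ ∈ A' := by
      rw [commutatorElement_def]
      exact A'.mul_mem ((Subgroup.mem_normalizer_iff.mp (h1 ha) _).mp hg) (A'.inv_mem hg)
    have h5 : ⁅⁅a, g⁆, g⁆ ∈ ⁅A', A'⁆ := Subgroup.commutator_mem_commutator h4 hg
    rw [Subgroup.commutator_eq_bot_iff_le_centralizer] at h2
    refine Subgroup.mem_centralizer_iff.mpr ?_
    intro c hc
    exact (Subgroup.mem_centralizer_iff.mp (h2 hc) _ h5).symm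
  · have h4 : ⁅v, g⁆ ∈ ⁅ZZ A, A'⁆ := Subgroup.commutator_mem_commutator hv hg
    have h5 : ⁅⁅v, g⁆, g⁆ ∈ ⁅⁅ZZ A, A'⁆, A'⁆ := Subgroup.commutator_mem_commutator h4 hg
    rw [h3] at h5
    exact h5

/-- `H₂` on the ambient level. -/
theorem Crit.le_core_two (hst : StAll p X) (hA : Crit p A) (B : Subgroup X) (h : ⁅B, A⁆ ≤ ZZ B) :
    B ≤ pCore p X := by
  intro g hg
  have key : ∀ a ∈ A, ⁅⁅a, g⁆, g⁆ = 1 := by
    intro a ha
    have h1 : ⁅g, a⁆ ∈ ZZ B := h (Subgroup.commutator_mem_commutator hg ha)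
    have h2 : ⁅a, g⁆ ∈ ZZ B := by
      rw [← commutatorElement_inv]
      exact Subgroup.inv_mem _ h1
    rw [commutatorElement_eq_one_iff_mul_comm]
    exact (Subgroup.mem_centralizer_iff.mp h2.2 g hg).symm
  refine hA.mem_core hst (fun a ha => ?_) (fun v hv => key v hv.1)
  rw [key a ha]
  exact Subgroup.one_mem _

/-- **Theorem P**. -/
theorem normal_kInf (hst : StAll p X)
    (hC : Subgroup.centralizer ((pCore p X : Subgroup X) : Set X) ≤ pCore p X) (S : Sylow p X) :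
    (inducedFunctor kInfLower (S : Subgroup X)).Normal ∧ (inducedFunctor kInfUpper (S : Subgroup X)).Normal := by
  obtain ⟨A, hA⟩ := exists_crit hC
  haveI hAn := hA.normal
  set f : ↥(S : Subgroup X) →* X := (S : Subgroup X).subtype with hf
  have hfi : Function.Injective f := (S : Subgroup X).subtype_injective
  set T := pCore p X with hT
  have hTS : T ≤ (S : Subgroup X) := pCore_le_sylow p S
  have hAS : A ≤ (S : Subgroup X) := hA.le.trans hTS
  set AP := A.subgroupOf (S : Subgroup X) with hAP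
  set TP := T.subgroupOf (S : Subgroup X) with hTP
  have hAPm : AP.map f = A := Subgroup.map_subgroupOf_eq_of_le hAS
  have hTPm : TP.map f = T := Subgroup.map_subgroupOf_eq_of_le hTS
  haveI hAPn : AP.Normal := inferInstance
  have hZm : (AP ⊓ Subgroup.centralizer (AP : Set ↥(S : Subgroup X))).map f = ZZ A := by
    rw [map_center_of f hfi, hAPm]
  have hSp : IsPGroup p (S : Subgroup X) := S.isPGroup'
  have hbounds := fun n => Cfsg.Agent.Lib.KInfThm.kSeq_bounds AP TP ?_ ?_ ?_ ?_ ?_ n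
  · exact Cfsg.Agent.Lib.KInfThm.normal_kInf_of_bounds S fun n => ⟨(hbounds n).1.1, (hbounds n).2.1⟩
  · -- `AP` of class two
    rw [← classTwo_map_iff f hfi, hAPm]
    exact hA.class2
  · -- `[AP, TP] ≤ Z(AP)`
    rw [← map_le_map_iff_of_inj f hfi, Subgroup.map_commutator, hZm, hAPm, hTPm, Subgroup.commutator_comm]
    exact hA.comm
  · -- H₁
    intro A' hA' h1 h2 h3
    rw [← map_le_map_iff_of_inj f hfi, Subgroup.map_commutator, hZm, hAPm, Subgroup.commutator_comm]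
    have h1' : A ≤ Subgroup.normalizer ((A'.map f : Subgroup X) : Set X) := by
      rw [← hAPm]
      exact (normalizer_map_iff f hfi).mpr h1
    have h2' : ⁅A, ⁅A'.map f, A'.map f⁆⁆ = ⊥ := by
      have := congrArg (Subgroup.map f) h2
      rw [Subgroup.map_commutator, Subgroup.map_commutator, hAPm, Subgroup.map_bot] at this
      exact this
    have h3' : ⁅⁅ZZ A, A'.map f⁆, A'.map f⁆ = ⊥ := by
      have := congrArg (Subgroup.map f) h3
      rw [Subgroup.map_commutator, Subgroup.map_commutator, hZm, Subgroup.map_bot] at this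
      exact this
    exact (Subgroup.commutator_mono (hA.le_core_one hst _ h1' h2' h3') le_rfl).trans hA.comm
  · -- H₂
    intro B hB h
    rw [← map_le_map_iff_of_inj f hfi, hTPm]
    refine hA.le_core_two hst _ ?_
    have := Subgroup.map_mono (f := f) h
    rw [Subgroup.map_commutator, map_center_of f hfi, hAPm] at this
    exact this
  · -- H₃
    intro Q hQ B hB
    obtain ⟨hB2, hBQ, hfam⟩ := hB
    rw [← map_le_map_iff_of_inj f hfi, hTPm]
    refine hA.le_core_of_family hst _ ?_ ?_ ?_ ?_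
    · exact IsPGroup.map (IsPGroup.to_subgroup hSp B) f
    · rw [← hAPm]
      exact (normalizer_map_iff f hfi).mpr (hQ.trans hBQ)
    · exact (classTwo_map_iff f hfi).mpr hB2
    · intro A' h1 h2 h3 h4 h5
      set A₁ := A'.subgroupOf (S : Subgroup X) with hA₁
      have hA'S : A' ≤ (S : Subgroup X) := h2.trans hAS
      have hA₁m : A₁.map f = A' := Subgroup.map_subgroupOf_eq_of_le hA'S
      rw [← hA₁m] at h1 h3 h4 h5 ⊢
      have h6 := hfam A₁ ((classTwo_map_iff f hfi).mp h1) ?_ ((normalizer_map_iff f hfi).mp h3) ?_ ?_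
      · have := Subgroup.map_mono (f := f) h6
        rw [Subgroup.map_commutator, map_center_of f hfi] at this
        exact this
      · refine le_trans ?_ hQ
        rw [← map_le_map_iff_of_inj f hfi, hA₁m, hAPm]
        exact h2
      · apply Subgroup.map_injective hfi
        rw [Subgroup.map_commutator, Subgroup.map_commutator, Subgroup.map_bot]
        exact h4
      · apply Subgroup.map_injective hfi
        rw [Subgroup.map_commutator, Subgroup.map_commutator, map_center_of f hfi, Subgroup.map_bot]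
        exact h5

end Crit

end Cfsg.Agent.Lib.KInfStable
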