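import Mathlib
import Cfsg.Agent.Lib.PSolv
import Cfsg.Agent.Lib.PCore

/-!
# Finite groups in which all nontrivial `p`-elements are conjugate
-/

set_option autoImplicit false
set_option linter.unusedSectionVars false
set_option linter.unusedVariables false
set_option linter.style.haveILetI false

namespace Cfsg.Agent.Lib.KLOneGp

open Cfsg Cfsg.Agent.Lib.PCore Cfsg.Agent.Lib.PSolv

universe u

variable {G : Type u} [Group G] [Finite G] {p : ℕ} [hp : Fact p.Prime]

/-- `p`-elements. -/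
def PEl (p : ℕ) (x : G) : Prop := ∃ k : ℕ, orderOf x = p ^ k

/-- All nontrivial `p`-elements are conjugate. -/
def AllConj (p : ℕ) (G : Type u) [Group G] : Prop :=
  ∀ x y : G, PEl p x → x ≠ 1 → PEl p y → y ≠ 1 → IsConj x y

theorem orderOf_eq_of_isConj {x y : G} (h : IsConj x y) : orderOf x = orderOf y := by
  obtain ⟨g, rfl⟩ := isConj_iff.1 h
  have := orderOf_injective (MulAut.conj g).toMonoidHom (MulAut.conj g).injective x
  simpa [MulAut.conj_apply] using this.symm

theorem pow_eq_one_of_allConj (hc : AllConj p G) {x : G} (hx : PEl p x) : x ^ p = 1 := by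
  have hpp := hp.out
  by_cases h1 : x = 1
  · simp [h1]
  obtain ⟨k, hk⟩ := id hx
  have hk0 : k ≠ 0 := by
    rintro rfl
    apply h1
    simpa using hk
  obtain ⟨j, rfl⟩ := Nat.exists_eq_succ_of_ne_zero hk0
  set y := x ^ (p ^ j) with hy
  have hoy : orderOf y = p := by
    rw [hy, orderOf_pow_of_dvd (pow_pos hpp.pos j).ne' (by rw [hk]; exact ⟨p, by rw [pow_succ]⟩), hk, pow_succ,
      Nat.mul_div_cancel_left _ (pow_pos hpp.pos j)]
  have hy1 : y ≠ 1 := by
    intro h
    rw [h, orderOf_one] at hoy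
    exact hpp.one_lt.ne hoy
  have h2 := hc x y hx h1 ⟨1, by rw [hoy, pow_one]⟩ hy1
  have h3 := orderOf_eq_of_isConj h2
  rw [hoy] at h3
  rw [← h3]
  exact pow_orderOf_eq_one x

theorem pel_of_mem {P : Subgroup G} (hP : IsPGroup p P) {x : G} (hx : x ∈ P) : PEl p x := by
  obtain ⟨k, hk⟩ := (IsPGroup.iff_orderOf.1 hP) ⟨x, hx⟩
  exact ⟨k, by rwa [Subgroup.orderOf_mk] at hk⟩

/-- An involutory fixed-point-free action gives commutativity. -/
theorem comm_of_odd (P : Sylow p G) (hodd : p ≠ 2) (hc : AllConj p G)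
    (HC : ∀ y u r : G, PEl p y → y ≠ 1 → Commute y u → Commute y r → ¬ p ∣ orderOf u →
      PEl p (r * u * r⁻¹ * u⁻¹) → r * u * r⁻¹ * u⁻¹ = 1) :
    ∀ a ∈ (P : Subgroup G), ∀ b ∈ (P : Subgroup G), a * b = b * a := by
  classical
  have hpp := hp.out
  by_cases hbot : (P : Subgroup G) = ⊥
  · intro a ha b hb
    rw [hbot, Subgroup.mem_bot] at ha hb
    simp [ha, hb]
  have hPp : IsPGroup p (P : Subgroup G) := P.isPGroup'
  haveI : Nontrivial (P : Subgroup G) := (Subgroup.nontrivial_iff_ne_bot _).2 hbot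
  haveI := hPp.center_nontrivial
  obtain ⟨z', hz'⟩ := exists_ne (1 : Subgroup.center (P : Subgroup G))
  set z : G := ((z' : (P : Subgroup G)) : G) with hz
  have hz1 : z ≠ 1 := by
    intro h
    apply hz'
    apply Subtype.ext
    apply Subtype.ext
    exact h
  have hzP : z ∈ (P : Subgroup G) := (z' : (P : Subgroup G)).2
  have hzC : ∀ a ∈ (P : Subgroup G), z * a = a * z := by
    intro a ha
    have := (Subgroup.mem_center_iff.1 z'.2) ⟨a, ha⟩
    have h2 := congrArg Subtype.val this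
    exact h2.symm
  have hzpel : PEl p z := pel_of_mem hPp hzP
  have hzinv1 : z⁻¹ ≠ 1 := inv_ne_one.2 hz1
  have hzinvpel : PEl p z⁻¹ := pel_of_mem hPp (inv_mem hzP)
  obtain ⟨g, hg⟩ := isConj_iff.1 (hc z z⁻¹ hzpel hz1 hzinvpel hzinv1)
  have hzCen : z ∈ Subgroup.centralizer ((P : Subgroup G) : Set G) := by
    rw [Subgroup.mem_centralizer_iff]
    intro a ha
    exact (hzC a ha).symm
  have hg' : g⁻¹⁻¹ * z * g⁻¹ = z⁻¹ := by
    rw [inv_inv]
    exact hg
  have hzinvCen : g⁻¹⁻¹ * z * g⁻¹ ∈ Subgroup.centralizer ((P : Subgroup G) : Set G) := by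
    rw [hg']
    exact inv_mem hzCen
  obtain ⟨n, hn, hnz⟩ := Sylow.conj_eq_normalizer_conj_of_mem_centralizer P z g⁻¹ hzCen hzinvCen
  -- `t = n⁻¹`
  set t : G := n⁻¹ with ht
  have htN : t ∈ Subgroup.normalizer ((P : Subgroup G) : Set G) := by
    exact inv_mem hn
  have htz : t * z * t⁻¹ = z⁻¹ := by
    rw [ht, inv_inv, ← hnz, hg']
  -- the 2-part
  have ht0 : orderOf t ≠ 0 := (orderOf_pos t).ne'
  obtain ⟨a, m, hm, hnm⟩ := Nat.exists_eq_two_pow_mul_odd ht0
  set t₁ : G := t ^ m with ht₁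
  have hconjpow : ∀ j : ℕ, t ^ (2 * j) * z * (t ^ (2 * j))⁻¹ = z := by
    intro j
    induction j with
    | zero => simp
    | succ j ih =>
      have h2 : t * z⁻¹ * t⁻¹ = z := by
        have : t * z⁻¹ * t⁻¹ = (t * z * t⁻¹)⁻¹ := by group
        rw [this, htz, inv_inv]
      calc t ^ (2 * (j + 1)) * z * (t ^ (2 * (j + 1)))⁻¹
          = t ^ (2 * j) * (t * (t * z * t⁻¹) * t⁻¹) * (t ^ (2 * j))⁻¹ := by
            rw [show 2 * (j + 1) = 2 * j + 1 + 1 by ring, pow_succ, pow_succ]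
            group
        _ = z := by rw [htz, h2, ih]
  have ht₁z : t₁ * z * t₁⁻¹ = z⁻¹ := by
    obtain ⟨j, hj⟩ := hm
    rw [ht₁, hj, pow_succ]
    calc t ^ (2 * j) * t * z * (t ^ (2 * j) * t)⁻¹ = t ^ (2 * j) * (t * z * t⁻¹) * (t ^ (2 * j))⁻¹ := by group
      _ = (t ^ (2 * j) * z * (t ^ (2 * j))⁻¹)⁻¹ := by rw [htz]; group
      _ = z⁻¹ := by rw [hconjpow]
  have ht₁pow : t₁ ^ (2 ^ a) = 1 := by
    rw [ht₁, ← pow_mul, mul_comm, ← hnm, pow_orderOf_eq_one]
  have ht₁N : t₁ ∈ Subgroup.normalizer ((P : Subgroup G) : Set G) := pow_mem htN m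
  -- the minimal power centralizing `P`
  let Q : ℕ → Prop := fun b => ∀ x ∈ (P : Subgroup G), t₁ ^ (2 ^ b) * x = x * t₁ ^ (2 ^ b)
  have hQex : ∃ b, Q b := ⟨a, fun x _ => by rw [ht₁pow]; simp⟩
  set b := Nat.find hQex with hb
  have hQb : Q b := Nat.find_spec hQex
  have hQmin : ∀ b' < b, ¬ Q b' := fun b' hb' => Nat.find_min hQex hb'
  have hb0 : b ≠ 0 := by
    intro h0
    have h1 := hQb z hzP
    rw [h0, pow_zero, pow_one] at h1
    have h2 : t₁ * z * t₁⁻¹ = z := by rw [h1]; group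
    rw [ht₁z] at h2
    -- `z = z⁻¹`, so `z ^ 2 = 1`
    have h3 : z ^ 2 = 1 := by
      rw [pow_two]
      nth_rw 1 [← h2]
      group
    have h4 := pow_eq_one_of_allConj hc hzpel
    have h5 : orderOf z ∣ 2 := orderOf_dvd_of_pow_eq_one h3
    have h6 : orderOf z ∣ p := orderOf_dvd_of_pow_eq_one h4
    have h7 : orderOf z ∣ Nat.gcd 2 p := Nat.dvd_gcd h5 h6
    have h8 : Nat.gcd 2 p = 1 := by
      exact (Nat.coprime_primes Nat.prime_two hpp).2 (Ne.symm hodd)
    rw [h8, Nat.dvd_one, orderOf_eq_one_iff] at h7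
    exact hz1 h7
  obtain ⟨c, hc'⟩ := Nat.exists_eq_succ_of_ne_zero hb0
  set u : G := t₁ ^ (2 ^ c) with hu
  have hu2 : ∀ x ∈ (P : Subgroup G), u * u * x = x * (u * u) := by
    intro x hx
    have h1 := hQb x hx
    rw [hc', Nat.succ_eq_add_one, pow_succ, pow_mul, pow_two] at h1
    exact h1
  have hunot : ¬ ∀ x ∈ (P : Subgroup G), u * x = x * u := by
    have := hQmin c (by omega)
    exact this
  have hureg : ¬ p ∣ orderOf u := by
    intro h
    have h1 : u ^ (2 ^ a) = 1 := by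
      rw [hu, ← pow_mul, mul_comm, pow_mul, ht₁pow, one_pow]
    have h2 : orderOf u ∣ 2 ^ a := orderOf_dvd_of_pow_eq_one h1
    have h3 : p ∣ 2 ^ a := h.trans h2
    have h4 := hpp.dvd_of_dvd_pow h3
    exact hodd ((Nat.prime_dvd_prime_iff_eq hpp Nat.prime_two).1 h4)
  have huN : u ∈ Subgroup.normalizer ((P : Subgroup G) : Set G) := pow_mem ht₁N _
  have huP : ∀ x ∈ (P : Subgroup G), u * x * u⁻¹ ∈ (P : Subgroup G) := fun x hx =>
    (Subgroup.mem_normalizer_iff.1 huN x).1 hx
  have hcomm : ∀ r ∈ (P : Subgroup G), PEl p (r * u * r⁻¹ * u⁻¹) := by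
    intro r hr
    apply pel_of_mem hPp
    have : r * u * r⁻¹ * u⁻¹ = r * (u * r⁻¹ * u⁻¹) := by group
    rw [this]
    exact mul_mem hr (huP _ (inv_mem hr))
  -- fixed-point-freeness
  have hfpf : ∀ y ∈ (P : Subgroup G), u * y * u⁻¹ = y → y = 1 := by
    intro y hy hfix
    by_contra hy1
    have hyu : Commute y u := by
      show y * u = u * y
      nth_rw 1 [← hfix]
      group
    have hyz : Commute y z := (hzC y hy).symm
    have h1 := HC y u z (pel_of_mem hPp hy) hy1 hyu hyz hureg (hcomm z hzP)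
    have hzu : Commute z u := by
      show z * u = u * z
      have h2 : z * u * z⁻¹ = u := by
        have := mul_eq_one_iff_eq_inv.1 h1
        rw [this, inv_inv]
      nth_rw 2 [← h2]
      group
    apply hunot
    intro r hr
    have hzr : Commute z r := hzC r hr
    have h3 := HC z u r hzpel hz1 hzu hzr hureg (hcomm r hr)
    have h4 : r * u * r⁻¹ = u := by
      have := mul_eq_one_iff_eq_inv.1 h3
      rw [this, inv_inv]
    have h5 : r * u = u * r := by
      nth_rw 2 [← h4]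
      group
    exact h5.symm
  -- the automorphism
  let φ : (P : Subgroup G) →* (P : Subgroup G) :=
    { toFun := fun x => ⟨u * x * u⁻¹, huP x x.2⟩
      map_one' := by apply Subtype.ext; simp
      map_mul' := fun x y => by
        apply Subtype.ext
        show u * ((x : G) * (y : G)) * u⁻¹ = (u * (x : G) * u⁻¹) * (u * (y : G) * u⁻¹)
        group }
  have hφ : MonoidHom.FixedPointFree φ := by
    intro x hx
    apply Subtype.ext
    have := congrArg Subtype.val hx
    exact hfpf x x.2 this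
  have hinv : Function.Involutive φ := by
    intro x
    apply Subtype.ext
    show u * (u * (x : G) * u⁻¹) * u⁻¹ = x
    have h1 := hu2 x x.2
    calc u * (u * (x : G) * u⁻¹) * u⁻¹ = (u * u * x) * (u * u)⁻¹ := by group
      _ = x := by rw [h1]; group
  intro a' ha' b' hb'
  have := hφ.commute_all_of_involutive hinv ⟨a', ha'⟩ ⟨b', hb'⟩
  have h2 := congrArg Subtype.val (show (⟨a', ha'⟩ : (P : Subgroup G)) * ⟨b', hb'⟩ = ⟨b', hb'⟩ * ⟨a', ha'⟩ from this)
  exact h2

/-- The `p`-solvable case. -/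
theorem comm_of_psolv (hsol : IsPSolvable p G) (P : Sylow p G) (hc : AllConj p G) :
    ∀ a ∈ (P : Subgroup G), ∀ b ∈ (P : Subgroup G), a * b = b * a := by
  classical
  have hpp := hp.out
  by_cases hbot : (P : Subgroup G) = ⊥
  · intro a ha b hb
    rw [hbot, Subgroup.mem_bot] at ha hb
    simp [ha, hb]
  have hPp : IsPGroup p (P : Subgroup G) := P.isPGroup'
  obtain ⟨x₁', hx₁1'⟩ := Subgroup.ne_bot_iff_exists_ne_one.1 hbot
  obtain ⟨x₁, hx₁⟩ := x₁'
  have hx₁1 : x₁ ≠ 1 := fun h => hx₁1' (Subtype.ext h)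
  set O := pPrimeCore p G with hO
  let π : G →* G ⧸ O := QuotientGroup.mk' O
  have hπ : Function.Surjective π := QuotientGroup.mk'_surjective O
  have hsolbar : IsPSolvable p (G ⧸ O) := isPSolvable_quotient hsol O
  have hcore : pPrimeCore p (G ⧸ O) = ⊥ := pPrimeCore_quotient_pPrimeCore p
  have hcen := centralizer_pCore_le_of_pSolvable hsolbar hcore
  have hker : ∀ x ∈ (P : Subgroup G), π x = 1 → x = 1 := by
    intro x hx hπx
    have hxO : x ∈ O := by
      rw [QuotientGroup.mk'_apply] at hπx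
      exact (QuotientGroup.eq_one_iff x).1 hπx
    obtain ⟨k, hk⟩ := pel_of_mem hPp hx
    have h1 : orderOf x ∣ Nat.card O := by
      have := Subgroup.orderOf_dvd_natCard O hxO
      exact this
    have h2 : (Nat.card O).Coprime p := card_pPrimeCore_coprime p
    have h3 : k = 0 := by
      by_contra hk0
      have h4 : p ∣ orderOf x := by
        rw [hk]
        exact dvd_pow_self p hk0
      have h5 := h4.trans h1
      exact hpp.one_lt.ne' (Nat.eq_one_of_dvd_coprimes h2.symm (dvd_refl p) h5)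
    rw [h3, pow_zero, orderOf_eq_one_iff] at hk
    exact hk
  have hQne : pCore p (G ⧸ O) ≠ ⊥ := by
    intro h
    rw [h] at hcen
    have h1 : (π x₁) ∈ Subgroup.centralizer ((⊥ : Subgroup (G ⧸ O)) : Set (G ⧸ O)) := by
      rw [Subgroup.mem_centralizer_iff]
      rintro g hg
      have hg' : g = 1 := by simpa using hg
      simp [hg']
    have h2 := hcen h1
    rw [Subgroup.mem_bot] at h2
    exact hx₁1 (hker x₁ (by simpa using hx₁) h2)
  have hQp : IsPGroup p (pCore p (G ⧸ O)) := isPGroup_pCore p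
  haveI : Nontrivial (pCore p (G ⧸ O)) := (Subgroup.nontrivial_iff_ne_bot _).2 hQne
  haveI := hQp.center_nontrivial
  obtain ⟨w', hw'⟩ := exists_ne (1 : Subgroup.center (pCore p (G ⧸ O)))
  set w : G ⧸ O := ((w' : pCore p (G ⧸ O)) : G ⧸ O) with hw
  have hw1 : w ≠ 1 := by
    intro h
    apply hw'
    apply Subtype.ext
    apply Subtype.ext
    exact h
  have hwQ : w ∈ pCore p (G ⧸ O) := (w' : pCore p (G ⧸ O)).2
  have hwC : ∀ q ∈ pCore p (G ⧸ O), w * q = q * w := by
    intro q hq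
    have := (Subgroup.mem_center_iff.1 w'.2) ⟨q, hq⟩
    have h2 := congrArg Subtype.val this
    exact h2.symm
  have hQsyl : pCore p (G ⧸ O) ≤ (P : Subgroup G).map π := by
    have h1 := pCore_le_sylow p (P.mapSurjective hπ)
    rwa [Sylow.coe_mapSurjective] at h1
  obtain ⟨x₀, hx₀, hx₀w⟩ := hQsyl hwQ
  have hx₀1 : x₀ ≠ 1 := by
    rintro rfl
    apply hw1
    rw [← hx₀w, map_one]
  have hnorm : (pCore p (G ⧸ O)).Normal := pCore_normal p (G ⧸ O)
  have hall : ∀ y ∈ (P : Subgroup G), π y ∈ pCore p (G ⧸ O) ∧ ∀ q ∈ pCore p (G ⧸ O), π y * q = q * π y := by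
    intro y hy
    by_cases hy1 : y = 1
    · subst hy1
      simp [one_mem]
    obtain ⟨g, hg⟩ := isConj_iff.1 (hc x₀ y (pel_of_mem hPp hx₀) hx₀1 (pel_of_mem hPp hy) hy1)
    have h1 : π y = π g * w * (π g)⁻¹ := by
      rw [← hg, map_mul, map_mul, map_inv, hx₀w]
    rw [h1]
    refine ⟨hnorm.conj_mem _ hwQ _, fun q hq => ?_⟩
    have h2 := hwC ((π g)⁻¹ * q * π g) (by
      have := hnorm.conj_mem _ hq (π g)⁻¹
      rwa [inv_inv] at this)
    calc π g * w * (π g)⁻¹ * q = π g * (w * ((π g)⁻¹ * q * π g)) * (π g)⁻¹ := by group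
      _ = π g * (((π g)⁻¹ * q * π g) * w) * (π g)⁻¹ := by rw [h2]
      _ = _ := by group
  intro a ha b hb
  have h1 := (hall a ha).2 _ (hall b hb).1
  have h2 : π (a * b * a⁻¹ * b⁻¹) = 1 := by
    rw [map_mul, map_mul, map_mul, map_inv, map_inv, h1]
    group
  have h3 := hker _ (mul_mem (mul_mem (mul_mem ha hb) (inv_mem ha)) (inv_mem hb)) h2
  have h4 : a * b * a⁻¹ = b := by
    have := mul_eq_one_iff_eq_inv.1 h3
    rw [this, inv_inv]
  nth_rw 2 [← h4]
  group

/-- Elementary abelian from commutativity. -/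
theorem isElementaryAbelian_of_comm (P : Sylow p G) (hc : AllConj p G)
    (h : ∀ a ∈ (P : Subgroup G), ∀ b ∈ (P : Subgroup G), a * b = b * a) :
    IsElementaryAbelian p (P : Subgroup G) := by
  refine ⟨⟨⟨fun a b => Subtype.ext (h a a.2 b b.2)⟩⟩, fun a ha => ?_⟩
  exact pow_eq_one_of_allConj hc (pel_of_mem P.isPGroup' ha)

/-- Groups of exponent two are commutative. -/
theorem comm_of_two (P : Sylow p G) (h2 : p = 2) (hc : AllConj p G) :
    ∀ a ∈ (P : Subgroup G), ∀ b ∈ (P : Subgroup G), a * b = b * a := by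
  subst h2
  intro a ha b hb
  have hP := P.isPGroup'
  have h1 := pow_eq_one_of_allConj hc (pel_of_mem hP ha)
  have h2 := pow_eq_one_of_allConj hc (pel_of_mem hP hb)
  have h3 := pow_eq_one_of_allConj hc (pel_of_mem hP (mul_mem ha hb))
  rw [pow_two] at h1 h2 h3
  calc a * b = a * (a * b * (a * b)) * b := by rw [h3]; simp
    _ = (a * a) * b * a * (b * b) := by group
    _ = b * a := by rw [h1, h2]; simp

/-- The final conclusion, principal case. -/
theorem isElementaryAbelian_main (P : Sylow p G) (hc : AllConj p G)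
    (HC : ∀ y u r : G, PEl p y → y ≠ 1 → Commute y u → Commute y r → ¬ p ∣ orderOf u →
      PEl p (r * u * r⁻¹ * u⁻¹) → r * u * r⁻¹ * u⁻¹ = 1) :
    IsElementaryAbelian p (P : Subgroup G) := by
  refine isElementaryAbelian_of_comm P hc ?_
  by_cases h2 : p = 2
  · exact comm_of_two P h2 hc
  · exact comm_of_odd P h2 hc HC

/-- The final conclusion, `p`-solvable case. -/
theorem isElementaryAbelian_psolv (hsol : IsPSolvable p G) (P : Sylow p G) (hc : AllConj p G) :
    IsElementaryAbelian p (P : Subgroup G) :=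
  isElementaryAbelian_of_comm P hc (comm_of_psolv hsol P hc)

end Cfsg.Agent.Lib.KLOneGp
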