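import Mathlib
import Cfsg.Agent.Lib.BlockKL
import Cfsg.Agent.Lib.BlockSection
import Cfsg.Agent.Lib.BrauerCorr
import Cfsg.Agent.Lib.BrauerSub
import Cfsg.Agent.Lib.CharKernel
import Cfsg.Agent.Lib.KLOneGp
import Cfsg.Agent.Lib.BlkPSolvHt
import Cfsg.Agent.Lib.BlockCoverDefect
import Cfsg.Agent.Lib.FongReynoldsDefect
import Cfsg.Agent.Lib.BlockDefectInd
import Cfsg.Agent.Lib.BlockQuotDefect

/-!
# Blocks with `k(B) ≤ l(B) + 1`

The section formula for `k(B) - l(B)`: at most one class of nontrivial `p`-elements carries a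
subsection of `B`.
-/

set_option autoImplicit false
set_option linter.unusedSectionVars false
set_option linter.unusedVariables false
set_option linter.style.haveILetI false

namespace Cfsg.Agent.Lib.KLOne

open Cfsg Cfsg.Agent.Lib.CharBasic Cfsg.Agent.Lib.CharInd Cfsg.Agent.Lib.CharIntegrality
open Cfsg.Agent.Lib.BlockLocal Cfsg.Agent.Lib.BlockIdem Cfsg.Agent.Lib.BlockQ
open Cfsg.Agent.Lib.BlockOrtho Cfsg.Agent.Lib.BlockSubsection Cfsg.Agent.Lib.BrauerPair
open Cfsg.Agent.Lib.BlkOrth Cfsg.Agent.Lib.BlockKL Cfsg.Agent.Lib.BlockSection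
open Cfsg.Agent.Lib.KLOneGp Cfsg.Agent.Lib.BlockNormal Cfsg.Agent.Lib.CharKernel
open Cfsg.Agent.Lib.BrauerSub Cfsg.Agent.Lib.BrauerCorr Cfsg.Agent.Lib.BlockDefect
open scoped ComplexConjugate Classical

universe u

section Count

variable {G : Type u} [Group G] [Fintype G] {p : ℕ} {M : Ideal AlgInt}

/-- The contribution of `z`. -/
noncomputable def aa (M : Ideal AlgInt) (p : ℕ) (B : Set (IrrCharacter G)) (z : G) : ℕ :=
  ∑ F : BlockT M (Subgroup.centralizer ({z} : Set G)),
    if IsInducedBlock M (Subgroup.centralizer ({z} : Set G)) F.1 B then blockRank p F.1 else 0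

theorem vz_eq_aa (hM : IsPModular p M) {B : Set (IrrCharacter G)} (hB : IsPBlock M B) {z : G}
    (hz : ∃ k : ℕ, orderOf z = p ^ k) :
    vz p B z = ((Nat.card (Subgroup.centralizer ({z} : Set G)) * aa M p B z : ℕ) : ℂ) := by
  rw [vz_eq hM hB hz]
  unfold aa
  push_cast
  rfl

/-- `aa` is invariant under conjugation (by the complex formula). -/
theorem card_mul_aa_conj (hM : IsPModular p M) {B : Set (IrrCharacter G)} (hB : IsPBlock M B) {z : G}
    (hz : ∃ k : ℕ, orderOf z = p ^ k) (y : G) :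
    Nat.card (Subgroup.centralizer ({y * z * y⁻¹} : Set G)) * aa M p B (y * z * y⁻¹) =
      Nat.card (Subgroup.centralizer ({z} : Set G)) * aa M p B z := by
  have h1 := vz_conj (p := p) B y z
  have hz' : ∃ k : ℕ, orderOf (y * z * y⁻¹) = p ^ k := by
    rwa [orderOf_conj_eq']
  rw [vz_eq_aa hM hB hz, vz_eq_aa hM hB hz'] at h1
  exact_mod_cast h1

/-- The class of `z`. -/
noncomputable def cl (z : G) : Finset G := Finset.univ.filter fun g => IsConj z g

theorem card_cl_mul (z : G) :
    (cl z).card * Nat.card (Subgroup.centralizer ({z} : Set G)) = Nat.card G := by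
  have h1 := MulAction.card_orbit_mul_card_stabilizer_eq_card_group (ConjAct G) z
  have h2 : Fintype.card (MulAction.stabilizer (ConjAct G) z) =
      Nat.card (Subgroup.centralizer ({z} : Set G)) := by
    rw [Subgroup.nat_card_centralizer_nat_card_stabilizer, Nat.card_eq_fintype_card]
  have h3 : Fintype.card (MulAction.orbit (ConjAct G) z) = (cl z).card := by
    rw [← Nat.card_eq_fintype_card, ConjAct.orbit_eq_carrier_conjClasses, Nat.card_coe_set_eq,
      ← Set.ncard_coe_finset]
    congr 1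
    ext g
    simp only [cl, ConjClasses.mem_carrier_iff_mk_eq, Finset.coe_filter, Finset.mem_univ, true_and,
      Set.mem_ofPred_eq, ConjClasses.mk_eq_mk_iff_isConj]
    exact isConj_comm
  rw [h2, h3] at h1
  rw [h1, Nat.card_eq_fintype_card, Fintype.card_congr (ConjAct.toConjAct (G := G)).toEquiv.symm]

/-- The natural-number form of the section formula. -/
noncomputable def ff (M : Ideal AlgInt) (p : ℕ) (B : Set (IrrCharacter G)) (z : G) : ℕ :=
  if (∃ k : ℕ, orderOf z = p ^ k) ∧ z ≠ 1 then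
    Nat.card (Subgroup.centralizer ({z} : Set G)) * aa M p B z else 0

theorem card_mul_eq (hM : IsPModular p M) {B : Set (IrrCharacter G)} (hB : IsPBlock M B) :
    Nat.card G * (bF B).card = Nat.card G * blockRank p B + ∑ z : G, ff M p B z := by
  have h1 := card_sub_rank hM hB
  have h2 : (∑ z : G, if (∃ k : ℕ, orderOf z = p ^ k) ∧ z ≠ 1 then vz p B z else 0) =
      ((∑ z : G, ff M p B z : ℕ) : ℂ) := by
    push_cast
    refine Finset.sum_congr rfl fun z _ => ?_
    unfold ff
    by_cases hz : (∃ k : ℕ, orderOf z = p ^ k) ∧ z ≠ 1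
    · rw [if_pos hz, if_pos hz, vz_eq_aa hM hB hz.1]
    · rw [if_neg hz, if_neg hz]
      simp
  rw [h2] at h1
  have h3 : ((Nat.card G * (bF B).card : ℕ) : ℂ) =
      ((Nat.card G * blockRank p B + ∑ z : G, ff M p B z : ℕ) : ℂ) := by
    push_cast at h1 ⊢
    rw [← h1]
    ring
  exact_mod_cast h3

/-- The contribution of a class. -/
theorem sum_cl (hM : IsPModular p M) {B : Set (IrrCharacter G)} (hB : IsPBlock M B) {z : G}
    (hz : ∃ k : ℕ, orderOf z = p ^ k) (hz1 : z ≠ 1) :
    ∑ g ∈ cl z, ff M p B g = Nat.card G * aa M p B z := by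
  have h1 : ∀ g ∈ cl z, ff M p B g = Nat.card (Subgroup.centralizer ({z} : Set G)) * aa M p B z := by
    intro g hg
    have hg' : IsConj z g := (Finset.mem_filter.mp hg).2
    obtain ⟨y, rfl⟩ := isConj_iff.1 hg'
    unfold ff
    rw [if_pos, card_mul_aa_conj hM hB hz]
    refine ⟨by rwa [orderOf_conj_eq'], ?_⟩
    intro h
    apply hz1
    have : z = y⁻¹ * (y * z * y⁻¹) * y := by group
    rw [this, h]
    group
  rw [Finset.sum_congr rfl h1, Finset.sum_const, smul_eq_mul, ← mul_assoc, card_cl_mul]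

theorem aa_le_one (hM : IsPModular p M) {B : Set (IrrCharacter G)} (hB : IsPBlock M B)
    (hk : (bF B).card ≤ blockRank p B + 1) {z : G}
    (hz : ∃ k : ℕ, orderOf z = p ^ k) (hz1 : z ≠ 1) : aa M p B z ≤ 1 := by
  have h1 := card_mul_eq hM hB
  have h2 := sum_cl hM hB hz hz1
  have h3 : ∑ g ∈ cl z, ff M p B g ≤ ∑ g : G, ff M p B g :=
    Finset.sum_le_sum_of_subset (Finset.subset_univ _)
  have h4 : Nat.card G * (bF B).card ≤ Nat.card G * (blockRank p B + 1) := Nat.mul_le_mul_left _ hk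
  have h5 : 0 < Nat.card G := Nat.card_pos
  rw [mul_add, mul_one] at h4
  have h6 : Nat.card G * aa M p B z ≤ Nat.card G * 1 := by omega
  exact Nat.le_of_mul_le_mul_left h6 h5

theorem isConj_of_aa (hM : IsPModular p M) {B : Set (IrrCharacter G)} (hB : IsPBlock M B)
    (hk : (bF B).card ≤ blockRank p B + 1) {z z' : G}
    (hz : ∃ k : ℕ, orderOf z = p ^ k) (hz1 : z ≠ 1) (hz' : ∃ k : ℕ, orderOf z' = p ^ k) (hz1' : z' ≠ 1)
    (ha : aa M p B z ≠ 0) (ha' : aa M p B z' ≠ 0) : IsConj z z' := by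
  by_contra hnc
  have h1 := card_mul_eq hM hB
  have h2 := sum_cl hM hB hz hz1
  have h2' := sum_cl hM hB hz' hz1'
  have hdisj : Disjoint (cl z) (cl z') := by
    rw [Finset.disjoint_left]
    intro g hg hg'
    have h3 : IsConj z g := (Finset.mem_filter.mp hg).2
    have h4 : IsConj z' g := (Finset.mem_filter.mp hg').2
    exact hnc (h3.trans h4.symm)
  have h3 : ∑ g ∈ cl z ∪ cl z', ff M p B g ≤ ∑ g : G, ff M p B g :=
    Finset.sum_le_sum_of_subset (Finset.subset_univ _)
  rw [Finset.sum_union hdisj, h2, h2'] at h3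
  have h4 : Nat.card G * (bF B).card ≤ Nat.card G * (blockRank p B + 1) := Nat.mul_le_mul_left _ hk
  have h5 : 0 < Nat.card G := Nat.card_pos
  rw [mul_add, mul_one] at h4
  have h6 : Nat.card G * 1 ≤ Nat.card G * aa M p B z := Nat.mul_le_mul_left _ (Nat.one_le_iff_ne_zero.2 ha)
  have h7 : Nat.card G * 1 ≤ Nat.card G * aa M p B z' := Nat.mul_le_mul_left _ (Nat.one_le_iff_ne_zero.2 ha')
  omega

/-- Blocks have positive rank. -/
theorem blockRank_pos {X : Type u} [Group X] [Fintype X] [M.IsPrime] (hp : p.Prime)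
    {F : Set (IrrCharacter X)} (hF : IsPBlock M F) : 0 < blockRank p F := by
  obtain ⟨χ, hχ⟩ := exists_mem_of_isPBlock hF
  unfold blockRank
  rw [Nat.pos_iff_ne_zero]
  intro h0
  rw [Submodule.finrank_eq_zero] at h0
  have h1 : pRegularPart p (χ : X → ℂ) ∈
      Submodule.span ℂ ((fun χ : IrrCharacter X => pRegularPart p (χ : X → ℂ)) '' F) :=
    Submodule.subset_span ⟨χ, hχ, rfl⟩
  rw [h0, Submodule.mem_bot] at h1
  have h2 := congrFun h1 1
  rw [pRegularPart_of_reg _ (by simp [hp.one_lt.ne'])] at h2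
  exact irr_one_ne_zero' χ.2 h2

/-- A block inducing `B` contributes. -/
theorem aa_ne_zero_of_induced (hM : IsPModular p M) {B : Set (IrrCharacter G)} {z : G}
    {F : Set (IrrCharacter (Subgroup.centralizer ({z} : Set G)))}
    (hF : IsInducedBlock M (Subgroup.centralizer ({z} : Set G)) F B) : aa M p B z ≠ 0 := by
  haveI := isPrime_of_isPModular hM
  unfold aa
  intro h
  rw [Finset.sum_eq_zero_iff] at h
  have h1 := h ⟨F, hF.1⟩ (Finset.mem_univ _)
  rw [if_pos hF] at h1
  exact (blockRank_pos hM.1 hF.1).ne' h1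

theorem rank_le_aa {B : Set (IrrCharacter G)} {z : G}
    {F : Set (IrrCharacter (Subgroup.centralizer ({z} : Set G)))}
    (hF : IsInducedBlock M (Subgroup.centralizer ({z} : Set G)) F B) :
    blockRank p F ≤ aa M p B z := by
  unfold aa
  have h1 := Finset.single_le_sum (f := fun F : BlockT M (Subgroup.centralizer ({z} : Set G)) =>
    if IsInducedBlock M (Subgroup.centralizer ({z} : Set G)) F.1 B then blockRank p F.1 else 0)
    (fun _ _ => Nat.zero_le _) (Finset.mem_univ (⟨F, hF.1⟩ : BlockT M (Subgroup.centralizer ({z} : Set G))))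
  simp only [if_pos hF] at h1
  exact h1

/-- **Elements of a defect group carry subsections.** -/
theorem exists_induced_of_mem_defect (hM : IsPModular p M) {B : Set (IrrCharacter G)} (hB : IsPBlock M B)
    {D : Subgroup G} (hD : IsDefectGroup p M B D) {z : G} (hz : z ∈ D) {H : Subgroup G} [Fintype H]
    (hH : H = Subgroup.centralizer ({z} : Set G)) :
    ∃ F : Set (IrrCharacter H), IsInducedBlock M H F B := by
  haveI : Fact p.Prime := ⟨hM.1⟩
  haveI := isPrime_of_isPModular hM
  obtain ⟨e, he⟩ := exists_maximal_of_isDefectGroup hM hB hD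
  have hQD : Subgroup.zpowers z ≤ D := by
    rw [Subgroup.zpowers_le]
    exact hz
  have hH' : H = Subgroup.centralizer ((Subgroup.zpowers z : Subgroup G) : Set G) := by
    rw [Cfsg.Agent.Lib.BlockSecond.centralizer_zpowers_eq, hH]
  subst hH'
  obtain ⟨f, hf, hle⟩ := exists_subpairLE hM he.1.1 hQD
  have h1 : IsBrauerPairOf p M B (Subgroup.zpowers z) f :=
    (isBrauerPairOf_iff_of_le hM hB hle).2 he.1
  exact ⟨f, isInducedBlock_of_isBrauerPair hM h1⟩

end Count

section RankOne

variable {X : Type u} [Group X] [Fintype X] {p : ℕ} {M : Ideal AlgInt}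

/-- In a principal block of rank one, `p`-regular elements lie in the kernels. -/
theorem eq_of_rank_one (hM : IsPModular p M) (hl : blockRank p (principalBlock M X) = 1)
    {χ : IrrCharacter X} (hχ : χ ∈ principalBlock M X) {u : X} (hu : ¬ p ∣ orderOf u) :
    (χ : X → ℂ) u = (χ : X → ℂ) 1 := by
  haveI := isPrime_of_isPModular hM
  have hp := hM.1
  have hreg1 : ¬ p ∣ orderOf (1 : X) := by simp [hp.one_lt.ne']
  unfold blockRank at hl
  let v : Submodule.span ℂ ((fun χ : IrrCharacter X => pRegularPart p (χ : X → ℂ)) '' principalBlock M X) :=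
    ⟨_, Submodule.subset_span ⟨irrOne X, irrOne_mem_principalBlock M, rfl⟩⟩
  have hv : v ≠ 0 := by
    intro h
    have h1 := congrFun (congrArg Subtype.val h) 1
    have h2 : pRegularPart p ((irrOne X : IrrCharacter X) : X → ℂ) 1 = 0 := h1
    rw [pRegularPart_of_reg _ hreg1] at h2
    simp [irrOne] at h2
  rw [finrank_eq_one_iff_of_nonzero' v hv] at hl
  obtain ⟨c, hc⟩ := hl ⟨_, Submodule.subset_span ⟨χ, hχ, rfl⟩⟩
  have h3 : c • pRegularPart p ((irrOne X : IrrCharacter X) : X → ℂ) = pRegularPart p (χ : X → ℂ) :=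
    congrArg Subtype.val hc
  have h4 := congrFun h3 1
  have h5 := congrFun h3 u
  simp only [Pi.smul_apply, smul_eq_mul] at h4 h5
  rw [pRegularPart_of_reg _ hreg1, pRegularPart_of_reg _ hreg1] at h4
  rw [pRegularPart_of_reg _ hu, pRegularPart_of_reg _ hu] at h5
  rw [← h5, ← h4]
  simp [irrOne]

/-- In a principal block of rank one, commutators with `p`-regular elements which are `p`-elements
are trivial. -/
theorem comm_eq_one_of_rank_one (hM : IsPModular p M) (hl : blockRank p (principalBlock M X) = 1)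
    {u r : X} (hu : ¬ p ∣ orderOf u) (hc : ∃ k : ℕ, orderOf (r * u * r⁻¹ * u⁻¹) = p ^ k) :
    r * u * r⁻¹ * u⁻¹ = 1 := by
  haveI := isPrime_of_isPModular hM
  haveI : Fact p.Prime := ⟨hM.1⟩
  by_contra hne
  set c := r * u * r⁻¹ * u⁻¹ with hcdef
  have h1 : ∀ χ ∈ principalBlock M X, (χ : X → ℂ) c = (χ : X → ℂ) 1 := by
    intro χ hχ
    have hχc : IsCharacter X (χ : X → ℂ) := IsIrrCharacter.isCharacter χ.2
    have hmem : u ∈ charKer hχc := (mem_charKer hχc).2 (eq_of_rank_one hM hl hχ hu)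
    have hmem2 : r * u * r⁻¹ ∈ charKer hχc := by
      rw [mem_charKer hχc, isClassFunction_of_isCharacter hχc u r]
      exact eq_of_rank_one hM hl hχ hu
    have hmem3 : c ∈ charKer hχc := mul_mem hmem2 (inv_mem hmem)
    exact (mem_charKer hχc).1 hmem3
  have h2 := sum_block_pelement_eq_zero hM hc (v := 1) ⟨0, by simp⟩
    (fun h => hne (isConj_one_right.1 h.symm)) (isPBlock_principalBlock M (G := X))
  rw [finsum_mem_eq_sum_bF] at h2
  have h3 : ∑ χ ∈ bF (principalBlock M X), (χ : X → ℂ) c * conj ((χ : X → ℂ) 1) =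
      ((∑ χ ∈ bF (principalBlock M X), (charDegree (χ : X → ℂ)) ^ 2 : ℕ) : ℂ) := by
    push_cast
    refine Finset.sum_congr rfl fun χ hχ => ?_
    rw [h1 χ (mem_bF.mp hχ), one_eq_charDegree (IsIrrCharacter.isCharacter χ.2)]
    simp [pow_two]
  rw [h3] at h2
  have h4 : (∑ χ ∈ bF (principalBlock M X), (charDegree (χ : X → ℂ)) ^ 2 : ℕ) = 0 := by
    exact_mod_cast h2
  rw [Finset.sum_eq_zero_iff] at h4
  have h5 := h4 (irrOne X) (mem_bF.mpr (irrOne_mem_principalBlock M))
  have h6 := charDegree_pos (irrOne X).2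
  have h7 : charDegree ((irrOne X : IrrCharacter X) : X → ℂ) = 0 := by
    simpa using h5
  omega

end RankOne

section Main

variable {G : Type u} [Group G] [Fintype G] {p : ℕ} [hp : Fact p.Prime] {M : Ideal AlgInt}

theorem charDegree_irrOne : charDegree ((irrOne G : IrrCharacter G) : G → ℂ) = 1 := by
  have h := one_eq_charDegree (IsIrrCharacter.isCharacter (irrOne G).2)
  have h2 : ((irrOne G : IrrCharacter G) : G → ℂ) 1 = 1 := rfl
  rw [h2] at h
  exact_mod_cast h.symm

/-- **The principal case.** -/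
theorem principal_case (hM : IsPModular p M)
    (hk : (bF (principalBlock M G)).card ≤ blockRank p (principalBlock M G) + 1) {D : Subgroup G}
    (hD : IsDefectGroup p M (principalBlock M G) D) : IsElementaryAbelian p D := by
  haveI := isPrime_of_isPModular hM
  have hB := isPBlock_principalBlock M (G := G)
  have hinduced : ∀ z : G, PEl p z → IsInducedBlock M (Subgroup.centralizer ({z} : Set G))
      (principalBlock M (Subgroup.centralizer ({z} : Set G))) (principalBlock M G) :=
    fun z hz => isInducedBlock_principal hM hz rfl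
  have hc : AllConj p G := fun x y hx hx1 hy hy1 =>
    isConj_of_aa hM hB hk hx hx1 hy hy1 (aa_ne_zero_of_induced hM (hinduced x hx))
      (aa_ne_zero_of_induced hM (hinduced y hy))
  have HC : ∀ y u r : G, PEl p y → y ≠ 1 → Commute y u → Commute y r → ¬ p ∣ orderOf u →
      PEl p (r * u * r⁻¹ * u⁻¹) → r * u * r⁻¹ * u⁻¹ = 1 := by
    intro y u r hy hy1 hyu hyr hu hcomm
    have hl : blockRank p (principalBlock M (Subgroup.centralizer ({y} : Set G))) = 1 := by
      have h1 := rank_le_aa (p := p) (hinduced y hy)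
      have h2 := aa_le_one hM hB hk hy hy1
      have h3 := blockRank_pos (p := p) (M := M) hp.out
        (isPBlock_principalBlock M (G := Subgroup.centralizer ({y} : Set G)))
      omega
    let u' : Subgroup.centralizer ({y} : Set G) :=
      ⟨u, Subgroup.mem_centralizer_singleton_iff.2 hyu.symm⟩
    let r' : Subgroup.centralizer ({y} : Set G) :=
      ⟨r, Subgroup.mem_centralizer_singleton_iff.2 hyr.symm⟩
    have h1 : orderOf (r' * u' * r'⁻¹ * u'⁻¹) = orderOf (r * u * r⁻¹ * u⁻¹) := by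
      rw [← Subgroup.orderOf_coe]
      rfl
    have h2 := comm_eq_one_of_rank_one hM hl (u := u') (r := r') (by rwa [Subgroup.orderOf_mk])
      (by rw [h1]; exact hcomm)
    exact congrArg Subtype.val h2
  have hcard : Nat.card D = p ^ (Nat.card G).factorization p := by
    have h1 := card_isDefectGroup hM hB hD
    have h2 := card_factorization_eq (p := p) hB
    have h3 : minExp p (principalBlock M G) = 0 := by
      have h4 := minExp_le (p := p) (irrOne_mem_principalBlock (G := G) M)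
      rw [charDegree_irrOne] at h4
      simpa using h4
    rw [h1, h2, h3, add_zero]
  have hP := Sylow.coe_ofCard D hcard
  rw [← hP]
  exact isElementaryAbelian_main _ hc HC

theorem exists_conj_mem_sylow (P : Sylow p G) {x : G} (hx : PEl p x) : ∃ g : G, g * x * g⁻¹ ∈ (P : Subgroup G) := by
  obtain ⟨k, hk⟩ := hx
  have hQ : IsPGroup p (Subgroup.zpowers x) := by
    apply IsPGroup.of_card (n := k)
    rw [Nat.card_zpowers, hk]
  obtain ⟨Q, hQ'⟩ := hQ.exists_le_sylow
  obtain ⟨g, hg⟩ := MulAction.exists_smul_eq G Q P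
  refine ⟨g, ?_⟩
  have h1 : x ∈ (Q : Subgroup G) := hQ' (Subgroup.mem_zpowers x)
  have h2 := Subgroup.smul_mem_pointwise_smul x (MulAut.conj g) (Q : Subgroup G) h1
  rw [← Sylow.coe_subgroup_smul, hg] at h2
  exact h2

/-- A Sylow defect group gives that all `p`-elements are conjugate. -/
theorem allConj_of_defect {B : Set (IrrCharacter G)} (hM : IsPModular p M) (hB : IsPBlock M B)
    (hk : (bF B).card ≤ blockRank p B + 1) {D : Subgroup G} (hD : IsDefectGroup p M B D)
    (hcard : Nat.card D = p ^ (Nat.card G).factorization p) : AllConj p G := by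
  have h1 : ∀ z ∈ D, aa M p B z ≠ 0 := by
    intro z hz
    obtain ⟨F, hF⟩ := exists_induced_of_mem_defect hM hB hD hz (H := Subgroup.centralizer ({z} : Set G)) rfl
    exact aa_ne_zero_of_induced hM hF
  have hPD := Sylow.coe_ofCard D hcard
  intro x y hx hx1 hy hy1
  obtain ⟨g, hg⟩ := exists_conj_mem_sylow (Sylow.ofCard D hcard) hx
  obtain ⟨g', hg'⟩ := exists_conj_mem_sylow (Sylow.ofCard D hcard) hy
  rw [hPD] at hg hg'
  have hne : ∀ {a b : G}, a ≠ 1 → b * a * b⁻¹ ≠ 1 := by
    intro a b ha h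
    apply ha
    have : a = b⁻¹ * (b * a * b⁻¹) * b := by group
    rw [this, h]
    group
  have hpel : ∀ {a : G} (b : G), PEl p a → PEl p (b * a * b⁻¹) := by
    intro a b ha
    obtain ⟨k, hk⟩ := ha
    exact ⟨k, by rw [orderOf_conj_eq', hk]⟩
  have h2 := isConj_of_aa hM hB hk (hpel g hx) (hne hx1) (hpel g' hy) (hne hy1) (h1 _ hg) (h1 _ hg')
  have h3 : IsConj x (g * x * g⁻¹) := isConj_iff.2 ⟨g, rfl⟩
  have h4 : IsConj y (g' * y * g'⁻¹) := isConj_iff.2 ⟨g', rfl⟩
  exact h3.trans (h2.trans h4.symm)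

/-- Induction does not lower the rank. -/
theorem blockRank_le_of_ind (T : Subgroup G) [Fintype T] {B : Set (IrrCharacter G)} {B' : Set (IrrCharacter T)}
    (h : ∀ χ ∈ B, ∃ ψ ∈ B', (χ : G → ℂ) = indFun T (ψ : T → ℂ)) :
    blockRank p B ≤ blockRank p B' := by
  have hext : ∀ (f f' : T → ℂ) (g : G), extendByZero T (f + f') g = extendByZero T f g + extendByZero T f' g := by
    intro f f' g
    by_cases hg : g ∈ T
    · simp [extendByZero_of_mem _ _ hg]
    · simp [extendByZero_of_not_mem _ _ hg]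
  have hext2 : ∀ (c : ℂ) (f : T → ℂ) (g : G), extendByZero T (c • f) g = c * extendByZero T f g := by
    intro c f g
    by_cases hg : g ∈ T
    · simp [extendByZero_of_mem _ _ hg]
    · simp [extendByZero_of_not_mem _ _ hg]
  let L : (T → ℂ) →ₗ[ℂ] (G → ℂ) :=
    { toFun := indFun T
      map_add' := by
        intro f f'
        funext g
        simp only [indFun_apply, Pi.add_apply, hext, Finset.sum_add_distrib, mul_add]
      map_smul' := by
        intro c f
        funext g
        simp only [indFun_apply, Pi.smul_apply, smul_eq_mul, hext2, RingHom.id_apply]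
        rw [← Finset.mul_sum]
        ring }
  have hreg : ∀ ψ : T → ℂ, pRegularPart p (indFun T ψ) = L (pRegularPart p ψ) := by
    intro ψ
    funext g
    show _ = indFun T (pRegularPart p ψ) g
    rw [indFun_apply]
    by_cases hg : ¬ p ∣ orderOf g
    · rw [pRegularPart_of_reg _ hg, indFun_apply]
      congr 1
      refine Finset.sum_congr rfl fun x _ => ?_
      by_cases hx : x⁻¹ * g * x ∈ T
      · rw [extendByZero_of_mem _ _ hx, extendByZero_of_mem _ _ hx, pRegularPart_of_reg]
        rw [Subgroup.orderOf_mk]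
        have : orderOf (x⁻¹ * g * x) = orderOf g := by
          have := orderOf_conj_eq' x⁻¹ g
          rwa [inv_inv] at this
        rwa [this]
      · rw [extendByZero_of_not_mem _ _ hx, extendByZero_of_not_mem _ _ hx]
    · rw [pRegularPart_of_sing _ (not_not.mp hg)]
      symm
      have : ∑ x : G, extendByZero T (pRegularPart p ψ) (x⁻¹ * g * x) = 0 := by
        apply Finset.sum_eq_zero
        intro x _
        by_cases hx : x⁻¹ * g * x ∈ T
        · rw [extendByZero_of_mem _ _ hx, pRegularPart_of_sing]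
          rw [Subgroup.orderOf_mk]
          have : orderOf (x⁻¹ * g * x) = orderOf g := by
            have := orderOf_conj_eq' x⁻¹ g
            rwa [inv_inv] at this
          rw [this]
          exact not_not.mp hg
        · rw [extendByZero_of_not_mem _ _ hx]
      rw [this, mul_zero]
  unfold blockRank
  set V' := Submodule.span ℂ ((fun χ : IrrCharacter T => pRegularPart p (χ : T → ℂ)) '' B') with hV'
  have hle : Submodule.span ℂ ((fun χ : IrrCharacter G => pRegularPart p (χ : G → ℂ)) '' B) ≤ V'.map L := by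
    rw [Submodule.span_le]
    rintro _ ⟨χ, hχ, rfl⟩
    obtain ⟨ψ, hψ, hχψ⟩ := h χ hχ
    refine ⟨pRegularPart p (ψ : T → ℂ), Submodule.subset_span ⟨ψ, hψ, rfl⟩, ?_⟩
    show L _ = pRegularPart p (χ : G → ℂ)
    rw [hχψ, hreg]
  calc Module.finrank ℂ _ ≤ Module.finrank ℂ (V'.map L) := Submodule.finrank_mono hle
    _ ≤ Module.finrank ℂ V' := Submodule.finrank_map_le _ _

end Main

section Solv

theorem isEA_of_conj_map {G : Type u} [Group G] {p : ℕ} (T : Subgroup G) (D' : Subgroup T) (D : Subgroup G) (t : G)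
    (h : D.map (MulAut.conj t).toMonoidHom = D'.map T.subtype) (hE : IsElementaryAbelian p D') :
    IsElementaryAbelian p D := by
  have key : ∀ a ∈ D, ∃ a' ∈ D', (a' : G) = t * a * t⁻¹ := by
    intro a ha
    have h1 : t * a * t⁻¹ ∈ D.map (MulAut.conj t).toMonoidHom := ⟨a, ha, by simp [MulAut.conj_apply]⟩
    rw [h] at h1
    obtain ⟨a', ha', h2⟩ := h1
    exact ⟨a', ha', h2⟩
  refine ⟨⟨⟨fun a b => Subtype.ext ?_⟩⟩, fun a ha => ?_⟩
  · obtain ⟨a', ha', h1⟩ := key a a.2
    obtain ⟨b', hb', h2⟩ := key b b.2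
    have h3 := hE.1.is_comm.comm (⟨a', ha'⟩ : D') ⟨b', hb'⟩
    have h4 : (a' : G) * b' = b' * a' := congrArg (fun x : D' => ((x : T) : G)) h3
    rw [h1, h2] at h4
    have h5 : t * ((a : G) * b) * t⁻¹ = t * ((b : G) * a) * t⁻¹ := by
      calc t * ((a : G) * b) * t⁻¹ = t * a * t⁻¹ * (t * b * t⁻¹) := by group
        _ = t * b * t⁻¹ * (t * a * t⁻¹) := h4
        _ = _ := by group
    have h8 : (a : G) * b = t⁻¹ * (t * ((a : G) * b) * t⁻¹) * t := by group
    have h9 : (b : G) * a = t⁻¹ * (t * ((b : G) * a) * t⁻¹) * t := by group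
    show (a : G) * b = b * a
    rw [h8, h5, ← h9]
  · obtain ⟨a', ha', h1⟩ := key a ha
    have h2 := hE.2 a' ha'
    have h3 : (a' : G) ^ p = 1 := congrArg (fun x : T => (x : G)) h2
    rw [h1, conj_pow] at h3
    have h4 : a ^ p = t⁻¹ * (t * a ^ p * t⁻¹) * t := by group
    rw [h4, h3]
    group

open Cfsg.Agent.Lib.BlockCoverDefect Cfsg.Agent.Lib.BlkPSolvHt in
/-- **The `p`-solvable case.** -/
theorem psolv_main : ∀ (n : ℕ) (G : Type u) [Group G] [Fintype G], Nat.card G = n → ∀ (p : ℕ) [Fact p.Prime]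
    (M : Ideal AlgInt), IsPModular p M → IsPSolvable p G → ∀ (χ : IrrCharacter G) (D : Subgroup G),
    IsDefectGroup p M (blockOf M (χ : G → ℂ)) D →
    (bF (blockOf M (χ : G → ℂ))).card ≤ blockRank p (blockOf M (χ : G → ℂ)) + 1 →
    IsElementaryAbelian p D := by
  intro n
  induction n using Nat.strong_induction_on with
  | _ n ih =>
  intro G _ _ hn p _ M hM hsol χ P hP hk
  classical
  haveI := hM.2.1.isPrime
  have hNn : (Cfsg.pPrimeCore p G).Normal := inferInstance
  letI : Fintype (Cfsg.pPrimeCore p G) := Fintype.ofFinite _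
  obtain ⟨θ, hθ⟩ := Cfsg.Agent.Lib.BlkNormalSub.exists_constituent (N := Cfsg.pPrimeCore p G) χ
  have hb : Cfsg.IsPBlock M (Cfsg.blockOf M (θ : Cfsg.pPrimeCore p G → ℂ)) := ⟨θ, rfl⟩
  have hsingle : ∀ θ' ∈ Cfsg.blockOf M (θ : Cfsg.pPrimeCore p G → ℂ), θ' = θ := by
    intro θ' hθ'
    refine Cfsg.Agent.Lib.BlockOrtho.eq_of_mem_blockOf_of_dvd hM ?_ hθ'
    have : (Nat.card (Cfsg.pPrimeCore p G)).factorization p = 0 :=
      Nat.factorization_eq_zero_of_not_dvd (Cfsg.Agent.Lib.PCore.not_dvd_card_pPrimeCore p)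
    rw [this]
    simp
  set T := stabSub hb with hTdef
  have hT : Cfsg.Agent.Lib.FongReynolds.IsStab _ T := isStab_stabSub hb
  have hNT : Cfsg.pPrimeCore p G ≤ T := le_stabSub hb
  have hBb : Cfsg.IsPBlock M (Cfsg.blockOf M (χ : G → ℂ)) := ⟨χ, rfl⟩
  have hχB : χ ∈ Cfsg.blockOf M (χ : G → ℂ) := mem_blockOf_self χ
  by_cases htop : T = ⊤
  · -- the invariant case
    have hinv : ∀ (g : G) (n : Cfsg.pPrimeCore p G),
        (θ : Cfsg.pPrimeCore p G → ℂ) (Cfsg.Agent.Lib.CharInduction.conjAut _ hNn g n) =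
          (θ : Cfsg.pPrimeCore p G → ℂ) n := by
      intro g m
      have hg : g ∈ T := by
        rw [htop]
        exact Subgroup.mem_top g
      have h1 := (hT g).mp hg θ (mem_blockOf_self θ)
      have h2 := hsingle _ h1
      have h3 := congrFun (congrArg Subtype.val h2) m
      exact h3
    obtain ⟨h0, -⟩ := invariant_case hM hsol χ θ hθ hinv
    have h1 := Cfsg.Agent.Lib.BlkRobinson.minExp_eq hM hBb hP
    have hcard : Nat.card P = p ^ (Nat.card G).factorization p := by
      have hDp : IsPGroup p P := IsPGroup.of_card (card_isDefectGroup hM hBb hP)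
      obtain ⟨m, hm⟩ := hDp.exists_card_eq
      have h2 : (Nat.card P).factorization p ≤ (Nat.card G).factorization p :=
        Cfsg.Agent.Lib.BlkRobinson.factorization_subgroup_le p P
      have h3 : (Nat.card P).factorization p = (Nat.card G).factorization p := by omega
      rw [hm, (Fact.out : p.Prime).factorization_pow, Finsupp.single_eq_same] at h3
      rw [hm, h3]
    have hPS := Sylow.coe_ofCard P hcard
    rw [← hPS]
    exact isElementaryAbelian_psolv hsol _ (allConj_of_defect hM hBb hk hP hcard)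
  · -- induction
    letI : Fintype T := Fintype.ofFinite _
    have hlt : Nat.card T < n := by
      rw [← hn]
      have h1 := Subgroup.card_mul_index T
      have h2 : T.index ≠ 1 := fun h => htop (Subgroup.index_eq_one.mp h)
      have h3 : T.index ≠ 0 := Subgroup.index_ne_zero_of_finite
      have h4 : 2 ≤ T.index := by omega
      have h5 : 0 < Nat.card T := Nat.card_pos
      nlinarith
    obtain ⟨B', hB', hcov', hind⟩ := Cfsg.Agent.Lib.FongReynolds.exists_induced_of_cover hNT hT hb hBb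
      ⟨χ, hχB, θ, mem_blockOf_self θ, hθ⟩
    obtain ⟨B₁, h1, -, h3, h4⟩ := Cfsg.Agent.Lib.FongReynolds.exists_induced hNT hT hb hB' hcov'
    have hB₁ : B₁ = Cfsg.blockOf M (χ : G → ℂ) := Cfsg.Agent.Lib.BlockDefectInd.isInducedBlock_unique h1 hind
    subst hB₁
    obtain ⟨ψ, hψ, hχψ⟩ := (h4 χ).mp hχB
    have hne : B'.Nonempty := ⟨ψ, hψ⟩
    have hBe : B' = Cfsg.blockOf M (ψ : T → ℂ) := by
      obtain ⟨ξ, rfl⟩ := hB'
      exact (blockOf_eq_of_mem hψ).symm
    obtain ⟨D', hD'⟩ := exists_isDefectGroup hM hB'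
    have hD₁ : Cfsg.IsDefectGroup p M (Cfsg.blockOf M (χ : G → ℂ)) (D'.map T.subtype) :=
      Cfsg.Agent.Lib.FongReynoldsDefect.isDefectGroup_map_of_induced hM hB' hBb
        (Cfsg.Agent.Lib.FongReynoldsDefect.blockDefect_eq hne h3 h4) hψ hχB hχψ hD'
    have hsolT : Cfsg.IsPSolvable p T := Cfsg.Agent.Lib.PSolv.isPSolvable_subgroup hsol T
    -- the numerics
    have hOall : ∀ ψ' ∈ B', Cfsg.Agent.Lib.FongReynolds.OverB hNT (Cfsg.blockOf M (θ : Cfsg.pPrimeCore p G → ℂ)) (ψ' : T → ℂ) := by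
      obtain ⟨ψ₀, hψ₀, θ₀, hθ₀, hne₀⟩ := hcov'
      have hO₀ := Cfsg.Agent.Lib.FongReynolds.over_of_cover hNT hT ψ₀.2 hθ₀ hne₀
      intro ψ' hψ'
      obtain ⟨θ', hθ', hne'⟩ := Cfsg.Agent.Lib.FongReynolds.cover_of_sameBlock_T hNT hT hb
        (Cfsg.Agent.Lib.BlockDefect.sameBlock_of_mem hB' hψ₀ hψ') hO₀
      exact Cfsg.Agent.Lib.FongReynolds.over_of_cover hNT hT ψ'.2 hθ' hne'
    have hrank : blockRank p (Cfsg.blockOf M (χ : G → ℂ)) ≤ blockRank p B' :=
      blockRank_le_of_ind T fun χ' hχ' => (h4 χ').mp hχ'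
    have hcard : (bF B').card ≤ (bF (Cfsg.blockOf M (χ : G → ℂ))).card := by
      refine Finset.card_le_card_of_injOn
        (fun ψ' => if h : ψ' ∈ B' then (⟨indFun T (ψ' : T → ℂ), h3 ψ' h⟩ : IrrCharacter G) else χ) ?_ ?_
      · intro ψ' hψ'
        have hψ'' : ψ' ∈ B' := mem_bF.mp hψ'
        simp only [dif_pos hψ'']
        exact mem_bF.mpr ((h4 _).mpr ⟨ψ', hψ'', rfl⟩)
      · intro ψ₁ hψ₁ ψ₂ hψ₂ heq
        have hψ₁' : ψ₁ ∈ B' := mem_bF.mp hψ₁
        have hψ₂' : ψ₂ ∈ B' := mem_bF.mp hψ₂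
        simp only [dif_pos hψ₁', dif_pos hψ₂'] at heq
        have h5 : indFun T (ψ₁ : T → ℂ) = indFun T (ψ₂ : T → ℂ) := congrArg Subtype.val heq
        by_contra hne'
        have h6 := Cfsg.Agent.Lib.FongReynolds.classInner_indFun_indFun_of_over hNT hT hb
          (IsIrrCharacter.isCharacter ψ₁.2) (IsIrrCharacter.isCharacter ψ₂.2) (hOall _ hψ₁') (hOall _ hψ₂')
        have h7 := Cfsg.Agent.Lib.FongReynolds.classInner_indFun_indFun_of_over hNT hT hb
          (IsIrrCharacter.isCharacter ψ₂.2) (IsIrrCharacter.isCharacter ψ₂.2) (hOall _ hψ₂') (hOall _ hψ₂')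
        rw [h5, h7, classInner_irr_self ψ₂.2, classInner_irr_ne' hne'] at h6
        exact one_ne_zero h6
    have hk' : (bF (Cfsg.blockOf M (ψ : T → ℂ))).card ≤ blockRank p (Cfsg.blockOf M (ψ : T → ℂ)) + 1 := by
      rw [← hBe]
      omega
    have hi := ih _ hlt T rfl p M hM hsolT ψ D' (by rw [← hBe]; exact hD') hk'
    obtain ⟨t, ht⟩ := Cfsg.Agent.Lib.BlockQuotDefect.IsDefectGroup_exists_conj_eq hM hBb hP hD₁
    exact isEA_of_conj_map T D' P t ht hi

end Solv

end Cfsg.Agent.Lib.KLOne
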