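import Mathlib
import Cfsg.Agent.S0111
import Cfsg.Agent.Lib.MaxClassTwo2

/-!
# A simple group with an involution whose centralizer has a Sylow 2-subgroup of order 4

If `x` is an involution of the Sylow 2-subgroup `P` of `G`, the 2-subgroups of `C(x)` have order at
most 4 and `P` is not cyclic, then `|P| ≤ 4` unless `G` has a normal subgroup of index 2.
-/

set_option autoImplicit false

namespace Cfsg.Agent.Lib.KleinSylow9

universe u

open scoped commutatorElement

section Abstract

variable {X : Type u} [Group X] [Finite X]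

/-- The conjugates of `y` lying in the fibre of the abelianization: a count. -/
theorem count_conj (y : X) (hC : Nat.card (Subgroup.centralizer ({y} : Set X)) ≤ 4)
    (hB : 4 ≤ Nat.card (Abelianization X)) :
    Nat.card (Abelianization X) = 4 ∧
      ∀ u : X, Abelianization.of u = Abelianization.of y → ∃ a : X, a * y * a⁻¹ = u := by
  classical
  letI := Fintype.ofFinite X
  set C := Subgroup.centralizer ({y} : Set X) with hCdef
  set D := commutator X with hD
  have hX : Nat.card X = Nat.card D * Nat.card (Abelianization X) := by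
    have := Subgroup.card_mul_index D
    rw [← this]
    rfl
  -- the map `D`-valued
  have hmem : ∀ a : X, y⁻¹ * (a * y * a⁻¹) ∈ D := by
    intro a
    have : y⁻¹ * (a * y * a⁻¹) = ⁅y⁻¹, a⁆ := by
      simp [commutatorElement_def, mul_assoc]
    rw [this]
    exact Subgroup.commutator_mem_commutator (Subgroup.mem_top _) (Subgroup.mem_top _)
  let g : X → D := fun a => ⟨y⁻¹ * (a * y * a⁻¹), hmem a⟩
  -- fibres of `g` have at most `|C|` elements
  have hfib : ∀ d : D, (Finset.univ.filter (fun a => g a = d)).card ≤ Nat.card C := by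
    intro d
    by_cases hne : (Finset.univ.filter (fun a => g a = d)).Nonempty
    · obtain ⟨a₀, ha₀⟩ := hne
      have ha₀' : g a₀ = d := (Finset.mem_filter.mp ha₀).2
      let φ : {a // a ∈ Finset.univ.filter (fun a => g a = d)} → C := fun a =>
        ⟨a₀⁻¹ * a.1, by
          have h := (Finset.mem_filter.mp a.2).2
          have h2 : g a.1 = g a₀ := h.trans ha₀'.symm
          have h3 : a.1 * y * a.1⁻¹ = a₀ * y * a₀⁻¹ := by
            have := congrArg Subtype.val h2
            simpa [g] using this
          rw [hCdef, Subgroup.mem_centralizer_singleton_iff]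
          have : a₀⁻¹ * a.1 * y = y * (a₀⁻¹ * a.1) := by
            have h4 : a.1 * y = a₀ * y * a₀⁻¹ * a.1 := by
              rw [← h3]; group
            calc a₀⁻¹ * a.1 * y = a₀⁻¹ * (a.1 * y) := by group
              _ = a₀⁻¹ * (a₀ * y * a₀⁻¹ * a.1) := by rw [h4]
              _ = y * (a₀⁻¹ * a.1) := by group
          exact this⟩
      have hφ : Function.Injective φ := by
        intro a b hab
        have := congrArg Subtype.val hab
        simp only [φ] at this
        exact Subtype.ext (mul_left_cancel this)
      have := Nat.card_le_card_of_injective φ hφ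
      rwa [Nat.card_eq_fintype_card (α := {a // a ∈ Finset.univ.filter (fun a => g a = d)}),
        Fintype.card_coe] at this
    · rw [Finset.not_nonempty_iff_eq_empty] at hne
      rw [hne]
      simp
  -- count
  have hcount : Nat.card X ≤ (Finset.univ.image g).card * Nat.card C := by
    rw [Nat.card_eq_fintype_card, ← Finset.card_univ]
    rw [Finset.card_eq_sum_card_image g]
    calc ∑ b ∈ Finset.univ.image g, (Finset.univ.filter (fun a => g a = b)).card
        ≤ ∑ _b ∈ Finset.univ.image g, Nat.card C := Finset.sum_le_sum fun d _ => hfib d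
      _ = _ := by simp
  have himg : (Finset.univ.image g).card ≤ Nat.card D := by
    rw [Nat.card_eq_fintype_card, ← Finset.card_univ]
    exact Finset.card_le_card (Finset.subset_univ _)
  have hDpos : 0 < Nat.card D := Nat.card_pos
  have hXpos : 0 < Nat.card X := Nat.card_pos
  have h4B : Nat.card (Abelianization X) = 4 := by
    by_contra hne
    have h5 : 5 ≤ Nat.card (Abelianization X) := by omega
    have h1 : Nat.card X ≤ Nat.card D * 4 :=
      hcount.trans (Nat.mul_le_mul himg hC)
    rw [hX] at h1
    nlinarith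
  refine ⟨h4B, ?_⟩
  -- `g` is surjective
  have hcard : (Finset.univ.image g).card = Nat.card D := by
    apply le_antisymm himg
    have h1 : Nat.card X ≤ (Finset.univ.image g).card * 4 :=
      hcount.trans (Nat.mul_le_mul_left _ hC)
    rw [hX, h4B] at h1
    exact Nat.le_of_mul_le_mul_right h1 (by norm_num)
  have hsurj : Finset.univ.image g = Finset.univ := by
    apply Finset.eq_univ_of_card
    rw [hcard, Nat.card_eq_fintype_card]
  intro u hu
  have hu' : y⁻¹ * u ∈ D := by
    have : Abelianization.of (y⁻¹ * u) = 1 := by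
      rw [map_mul, map_inv, hu, inv_mul_cancel]
    have h2 : y⁻¹ * u ∈ (Abelianization.of (G := X)).ker := this
    rwa [Abelianization.ker_of] at h2
  have : (⟨y⁻¹ * u, hu'⟩ : D) ∈ Finset.univ.image g := by
    rw [hsurj]; exact Finset.mem_univ _
  obtain ⟨a, -, ha⟩ := Finset.mem_image.mp this
  refine ⟨a, ?_⟩
  have h2 := congrArg Subtype.val ha
  simp only [g] at h2
  exact mul_left_cancel h2


omit [Finite X] in
/-- If all `u` outside the kernel of a map `f` onto a group of exponent 2 with at least three elements
satisfy `u² = 1`, then `X` is commutative. -/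
theorem comm_of_involutive {B : Type*} [CommGroup B] [Finite B] (f : X →* B)
    (hf : Function.Surjective f)
    (hB : 3 ≤ Nat.card B) (hexp : ∀ b : B, b * b = 1)
    (hinv : ∀ u : X, f u ≠ 1 → u * u = 1) (u v : X) : u * v = v * u := by
  classical
  have hfa : ∀ a : X, f a ≠ 1 → ∀ p : X, f p = 1 → a * p = p * a := by
    intro a ha p hp
    have hex : ∃ c : B, c ≠ 1 ∧ c ≠ f a := by
      by_contra hno
      push Not at hno
      have hsub : (Set.univ : Set B) ⊆ {1, f a} := by
        intro c _
        by_cases h1 : c = 1
        · simp [h1]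
        · simp [hno c h1]
      have h2 : Nat.card B ≤ 2 := by
        have h3 := Set.ncard_le_ncard hsub (Set.toFinite _)
        have h4 : ({1, f a} : Set B).ncard ≤ 2 := (Set.ncard_insert_le _ _).trans (by simp)
        rw [Set.ncard_univ] at h3
        exact h3.trans h4
      omega
    obtain ⟨c, hc1, hca⟩ := hex
    obtain ⟨b, rfl⟩ := hf c
    have hab : f (a * b) ≠ 1 := by
      rw [map_mul]
      intro h
      apply hca
      have h2 := hexp (f a)
      calc f b = f a * f a * f b := by rw [h2, one_mul]
        _ = f a * (f a * f b) := mul_assoc _ _ _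
        _ = f a := by rw [h, mul_one]
    have hap : f (a * p) ≠ 1 := by rwa [map_mul, hp, mul_one]
    have hbp : f (b * p) ≠ 1 := by rwa [map_mul, hp, mul_one]
    have habp : f (a * b * p) ≠ 1 := by rwa [map_mul, hp, mul_one]
    have a2 := hinv a ha
    have b2 := hinv b hc1
    have ab2 := hinv _ hab
    have i1 := hinv _ hap
    have i2 := hinv _ hbp
    have i3 := hinv _ habp
    have inv_of : ∀ w : X, (w * p) * (w * p) = 1 → w * p * w = p⁻¹ := by
      intro w h
      have : w * p * w * p = 1 := by rw [← h]; group
      exact eq_inv_of_mul_eq_one_left this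
    have e1 := inv_of a i1
    have e2 := inv_of b i2
    have e3 := inv_of (a * b) i3
    have hainv : a⁻¹ = a := inv_eq_of_mul_eq_one_left a2
    have hbinv : b⁻¹ = b := inv_eq_of_mul_eq_one_left b2
    have hc : a * b = b * a := by
      calc a * b = (a * b)⁻¹ := (inv_eq_of_mul_eq_one_left ab2).symm
        _ = b⁻¹ * a⁻¹ := mul_inv_rev a b
        _ = b * a := by rw [hbinv, hainv]
    have h5 : (a * b) * p * (a * b) = p := by
      calc (a * b) * p * (a * b) = (a * b) * p * (b * a) := by rw [← hc]
        _ = a * (b * p * b) * a := by group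
        _ = a * p⁻¹ * a := by rw [e2]
        _ = a⁻¹ * p⁻¹ * a⁻¹ := by rw [hainv]
        _ = (a * p * a)⁻¹ := by group
        _ = p := by rw [e1, inv_inv]
    have h6 : p⁻¹ = p := e3.symm.trans h5
    have h7 : a * p * a = p := e1.trans h6
    calc a * p = a * p * (a * a) := by rw [a2, mul_one]
      _ = (a * p * a) * a := by group
      _ = p * a := by rw [h7]
  have hcentral : ∀ a : X, f a ≠ 1 → ∀ w : X, a * w = w * a := by
    intro a ha w
    have a2 := hinv a ha
    have hainv : a⁻¹ = a := inv_eq_of_mul_eq_one_left a2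
    by_cases hw : f w = 1
    · exact hfa a ha w hw
    by_cases haw : f (a * w) = 1
    · have h := hfa a ha (a * w) haw
      have h8 : a * w * a = w := by rw [← h, ← mul_assoc, a2, one_mul]
      calc a * w = a * w * (a * a) := by rw [a2, mul_one]
        _ = (a * w * a) * a := by group
        _ = w * a := by rw [h8]
    · have h2 := hinv _ haw
      have w2 := hinv w hw
      have hwinv : w⁻¹ = w := inv_eq_of_mul_eq_one_left w2
      calc a * w = (a * w)⁻¹ := (inv_eq_of_mul_eq_one_left h2).symm
        _ = w⁻¹ * a⁻¹ := mul_inv_rev a w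
        _ = w * a := by rw [hwinv, hainv]
  by_cases hu : f u = 1
  · by_cases hv : f v = 1
    · -- choose `a` outside the kernel
      have hex : ∃ c : B, c ≠ 1 := by
        by_contra hno
        push Not at hno
        have : Nat.card B ≤ 1 := by
          rw [Finite.card_le_one_iff_subsingleton]
          exact ⟨fun a b => by rw [hno a, hno b]⟩
        omega
      obtain ⟨c, hc⟩ := hex
      obtain ⟨a, rfl⟩ := hf c
      have h1 : f (a * u) ≠ 1 := by rwa [map_mul, hu, mul_one]
      have h2 := hcentral _ h1 v
      have h3 := hcentral a hc v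
      apply mul_left_cancel (a := a)
      calc a * (u * v) = a * u * v := by group
        _ = v * (a * u) := h2
        _ = (v * a) * u := by group
        _ = (a * v) * u := by rw [h3]
        _ = a * (v * u) := by group
    · exact (hcentral v hv u).symm
  · exact hcentral u hu v

/-- The abstract statement: a non-cyclic 2-group `X` of order bigger than 4, with a nonempty conjugation
closed set `A` of involutions with centralizers of order at most 4, has a subgroup of index 2
missing `A`. -/
theorem exists_index_two (p2 : IsPGroup 2 X) (hnc : ¬ IsCyclic X) (hbig : 4 < Nat.card X)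
    (A : Set X) (hA2 : ∀ y ∈ A, y * y = 1) (hA1 : ∀ y ∈ A, y ≠ 1)
    (hAc : ∀ y ∈ A, ∀ a : X, a * y * a⁻¹ ∈ A)
    (hAC : ∀ y ∈ A, Nat.card (Subgroup.centralizer ({y} : Set X)) ≤ 4) (hne : A.Nonempty) :
    ∃ Q : Subgroup X, Q.index = 2 ∧ ∀ y ∈ A, y ∉ Q := by
  classical
  haveI : Fact (Nat.Prime 2) := ⟨Nat.prime_two⟩
  have hcycB : ¬ IsCyclic (Abelianization X) := fun h =>
    hnc (Cfsg.Agent.Lib.MaxClassTwo2.isCyclic_of_quotient (p := 2) p2 h)
  have hB4 : 4 ≤ Nat.card (Abelianization X) := by
    by_contra hlt
    push Not at hlt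
    have hpos : 0 < Nat.card (Abelianization X) := Nat.card_pos
    have h1 : Nat.card (Abelianization X) = 1 ∨ Nat.card (Abelianization X) = 2 ∨
        Nat.card (Abelianization X) = 3 := by omega
    rcases h1 with h | h | h
    · apply hcycB
      haveI : Subsingleton (Abelianization X) := (Nat.card_eq_one_iff_unique.mp h).1
      infer_instance
    · exact hcycB (isCyclic_of_prime_card h)
    · haveI : Fact (Nat.Prime 3) := ⟨Nat.prime_three⟩
      exact hcycB (isCyclic_of_prime_card h)
  obtain ⟨y₀, hy₀⟩ := hne
  have hB : Nat.card (Abelianization X) = 4 := (count_conj y₀ (hAC y₀ hy₀) hB4).1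
  have hconj := fun y (hy : y ∈ A) => (count_conj y (hAC y hy) hB4).2
  let f : X →* Abelianization X := Abelianization.of
  have hf : Function.Surjective f := QuotientGroup.mk'_surjective _
  have hexp : ∀ b : Abelianization X, b * b = 1 := by
    intro b
    have h1 : orderOf b ∣ 4 := by
      rw [← hB]
      exact orderOf_dvd_natCard b
    have h2 : orderOf b ≠ 4 := by
      intro h
      exact hcycB (isCyclic_of_orderOf_eq_card b (by rw [h, hB]))
    have h3 : orderOf b ∣ 2 := by
      have h5 : orderOf b ∈ Nat.divisors 4 := Nat.mem_divisors.mpr ⟨h1, by norm_num⟩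
      have h6 : Nat.divisors 4 = {1, 2, 4} := by decide
      rw [h6] at h5
      simp only [Finset.mem_insert, Finset.mem_singleton] at h5
      rcases h5 with h5 | h5 | h5
      · rw [h5]; norm_num
      · rw [h5]
      · exact absurd h5 h2
    have := orderOf_dvd_iff_pow_eq_one.mp h3
    rwa [sq] at this
  have hAne : ∀ y ∈ A, f y ≠ 1 := by
    intro y hy h
    obtain ⟨a, ha⟩ := hconj y hy 1 (by rw [map_one]; exact h.symm)
    apply hA1 y hy
    have : y = a⁻¹ * (a * y * a⁻¹) * a := by group
    rw [this, ha]; simp
  by_cases hT : ∃ c : Abelianization X, c ≠ 1 ∧ ∀ y ∈ A, f y ≠ c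
  · obtain ⟨c, hc1, hc⟩ := hT
    refine ⟨(Subgroup.zpowers c).comap f, ?_, ?_⟩
    · rw [Subgroup.index_comap_of_surjective _ hf]
      have hco : orderOf c = 2 := orderOf_eq_prime (by rw [sq]; exact hexp c) hc1
      have h1 := Subgroup.card_mul_index (Subgroup.zpowers c)
      rw [Nat.card_zpowers, hco, hB] at h1
      omega
    · intro y hy hmem
      have h1 : f y ∈ Subgroup.zpowers c := hmem
      have hco : orderOf c = 2 := orderOf_eq_prime (by rw [sq]; exact hexp c) hc1
      obtain ⟨k, hk⟩ := Subgroup.mem_zpowers_iff.mp h1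
      have h2 : ∀ k : ℤ, c ^ k = 1 ∨ c ^ k = c := by
        intro k
        rcases Int.even_or_odd' k with ⟨m, rfl | rfl⟩
        · left
          rw [zpow_mul, zpow_ofNat, sq, hexp]
          simp
        · right
          rw [zpow_add, zpow_mul, zpow_ofNat, sq, hexp]
          simp
      rcases h2 k with h3 | h3
      · exact hAne y hy (by rw [← hk, h3])
      · exact hc y hy (by rw [← hk, h3])
  · exfalso
    push Not at hT
    have hinv : ∀ u : X, f u ≠ 1 → u * u = 1 := by
      intro u hu
      obtain ⟨y, hy, hyu⟩ := hT _ hu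
      obtain ⟨a, ha⟩ := hconj y hy u hyu.symm
      have := hA2 _ (hAc y hy a)
      rwa [ha] at this
    have hcomm := comm_of_involutive f hf (by omega) hexp hinv
    -- then the commutator subgroup is trivial
    have hD : commutator X = ⊥ := by
      rw [commutator_def, Subgroup.commutator_eq_bot_iff_le_centralizer]
      intro a _ b _
      exact hcomm b a
    have hX := Subgroup.card_mul_index (commutator X)
    rw [hD] at hX
    have h3 : (⊥ : Subgroup X).index = Nat.card X := Subgroup.index_bot
    have h4 : (commutator X).index = 4 := hB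
    rw [hD] at h4
    omega

end Abstract

section Sylow

variable {G : Type u} [Group G] [Finite G]

/-- `|P| ≤ 4` for a Sylow 2-subgroup `P ∋ x`, when the 2-subgroups of `C(x)` have order at most 4 and
`G` has no normal subgroup of index 2. -/
theorem card_sylow_le_four (P : Sylow 2 G) (x : G) (hx : orderOf x = 2)
    (hxP : x ∈ (P : Subgroup G))
    (h4 : ∀ D : Subgroup G, IsPGroup 2 D → D ≤ Subgroup.centralizer ({x} : Set G) → Nat.card D ≤ 4)
    (hnc : ¬ IsCyclic (P : Subgroup G))
    (hno : ∀ M : Subgroup G, M.Normal → M.index ≠ 2) : Nat.card (P : Subgroup G) ≤ 4 := by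
  classical
  by_contra hbig
  push Not at hbig
  have hx2 : x * x = 1 := by
    have := pow_orderOf_eq_one x
    rwa [hx, sq] at this
  have hx1 : x ≠ 1 := by
    intro h
    rw [h, orderOf_one] at hx
    norm_num at hx
  let A : Set (P : Subgroup G) := {y | IsConj (y : G) x}
  have hA2 : ∀ y ∈ A, y * y = 1 := by
    intro y hy
    obtain ⟨g, hg⟩ := isConj_iff.mp hy
    apply Subtype.ext
    have : (y : G) = g⁻¹ * x * g := by rw [← hg]; group
    show (y : G) * y = 1
    rw [this]
    calc g⁻¹ * x * g * (g⁻¹ * x * g) = g⁻¹ * (x * x) * g := by group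
      _ = 1 := by rw [hx2]; group
  have hA1 : ∀ y ∈ A, y ≠ 1 := by
    intro y hy h
    obtain ⟨g, hg⟩ := isConj_iff.mp hy
    apply hx1
    rw [← hg, h]
    simp
  have hAc : ∀ y ∈ A, ∀ a : (P : Subgroup G), a * y * a⁻¹ ∈ A := by
    intro y hy a
    have h1 : IsConj (y : G) x := hy
    show IsConj (((a * y * a⁻¹ : (P : Subgroup G))) : G) x
    refine IsConj.trans ?_ h1
    rw [isConj_comm, isConj_iff]
    exact ⟨a, by simp⟩
  have hAC : ∀ y ∈ A, Nat.card (Subgroup.centralizer ({y} : Set (P : Subgroup G))) ≤ 4 := by
    intro y hy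
    obtain ⟨g, hg⟩ := isConj_iff.mp hy
    let φ : (P : Subgroup G) →* G := (MulAut.conj g).toMonoidHom.comp (P : Subgroup G).subtype
    have hφ : Function.Injective φ := by
      intro a b hab
      have h1 : g * (a : G) * g⁻¹ = g * (b : G) * g⁻¹ := hab
      exact Subtype.ext (by simpa using h1)
    have h5 := h4 ((Subgroup.centralizer ({y} : Set (P : Subgroup G))).map φ)
      ?_ ?_
    · rwa [Nat.card_congr (Subgroup.equivMapOfInjective _ φ hφ).toEquiv.symm] at h5
    · have hp : IsPGroup 2 (Subgroup.centralizer ({y} : Set (P : Subgroup G))) :=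
        P.isPGroup'.to_subgroup _
      exact hp.map φ
    · rintro _ ⟨c, hc, rfl⟩
      rw [Subgroup.mem_centralizer_singleton_iff]
      have hc' := Subgroup.mem_centralizer_singleton_iff.mp hc
      have hc2 : (c : G) * y = y * c := congrArg Subtype.val hc'
      show g * c * g⁻¹ * x = x * (g * c * g⁻¹)
      rw [← hg]
      calc g * c * g⁻¹ * (g * y * g⁻¹) = g * ((c : G) * y) * g⁻¹ := by group
        _ = g * (y * c) * g⁻¹ := by rw [hc2]
        _ = _ := by group
  have hne : A.Nonempty := ⟨⟨x, hxP⟩, IsConj.refl _⟩
  obtain ⟨Q, hQ, hQA⟩ := exists_index_two P.isPGroup' hnc hbig A hA2 hA1 hAc hAC hne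
  have hle : Q.map (P : Subgroup G).subtype ≤ (P : Subgroup G) := by
    rintro _ ⟨c, -, rfl⟩
    exact c.2
  have hrel : (Q.map (P : Subgroup G).subtype).relIndex (P : Subgroup G) = 2 := by
    have h1 : (Q.map (P : Subgroup G).subtype).subgroupOf (P : Subgroup G) = Q :=
      Subgroup.comap_map_eq_self_of_injective (Subgroup.subtype_injective _) Q
    rw [Subgroup.relIndex, h1, hQ]
  have hnot : x ∉ Q.map (P : Subgroup G).subtype := by
    rintro ⟨c, hc, hcx⟩
    have : c ∈ A := by
      show IsConj (c : G) x
      rw [show (c : G) = x from hcx]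
    exact hQA c this hc
  rcases Cfsg.Agent.S0111.result P _ hle hrel x hx hxP hnot with ⟨M, hM, hM2, -⟩ | ⟨g, hg⟩
  · exact hno M hM hM2
  · rcases hg with ⟨c, hc, hcg⟩
    have : c ∈ A := by
      show IsConj (c : G) x
      rw [show (c : G) = g * x * g⁻¹ from hcg, isConj_comm, isConj_iff]
      exact ⟨g, rfl⟩
    exact hQA c this hc

end Sylow

end Cfsg.Agent.Lib.KleinSylow9
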