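import Mathlib
import Cfsg.Agent.Lib.ThompsonWielandt

set_option autoImplicit false
set_option linter.unusedSectionVars false
set_option linter.unusedVariables false

open Cfsg

namespace Cfsg.Agent.Lib.ThompsonWielandtPerm

open Cfsg.Agent.Lib.ThompsonWielandt Cfsg.Agent.Lib.ThompsonTrans Cfsg.Agent.Lib.CharTwoLocal Cfsg.Agent.Lib.PCore
open MulAction

variable {G Ω : Type*} [Group G] [Finite G] [MulAction G Ω]

/-- The index of the kernel on an invariant set divides the factorial of its size. -/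
theorem relIndex_dvd_factorial {H K : Subgroup G} {S : Set Ω} [Finite S]
    (hS : ∀ h ∈ H, ∀ s ∈ S, h • s ∈ S) (hK : ∀ x ∈ H, x ∈ K ↔ ∀ s ∈ S, x • s = s) :
    K.relIndex H ∣ (Nat.card S).factorial := by
  let T : SubMulAction ↥H Ω := { carrier := S, smul_mem' := fun c s hs => hS c.1 c.2 s hs }
  let φ := MulAction.toPermHom ↥H T
  have hker : K.subgroupOf H = φ.ker := by
    ext x
    rw [Subgroup.mem_subgroupOf, MonoidHom.mem_ker, hK x.1 x.2]
    constructor
    · intro h
      ext s
      exact h s.1 s.2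
    · intro h s hs
      have := congrArg (fun f : Equiv.Perm T => ((f ⟨s, hs⟩ : T) : Ω)) h
      exact this
  rw [Subgroup.relIndex, hker, Subgroup.index_ker]
  have hfin : Finite T := by
    show Finite ↥S
    infer_instance
  have h1 : Nat.card φ.range ∣ Nat.card (Equiv.Perm T) := Subgroup.card_subgroup_dvd_card _
  rw [Nat.card_perm] at h1
  exact h1

/-- The index of an intersection of normal subgroups. -/
theorem index_iInf_dvd {Γ ι : Type*} [Group Γ] [Finite Γ] [Finite ι] (f : ι → Subgroup Γ)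
    (hn : ∀ i, (f i).Normal) (m : ℕ) (hm : ∀ i, (f i).index ∣ m) :
    (⨅ i, f i).index ∣ m ^ Nat.card ι := by
  classical
  have := Fintype.ofFinite ι
  let π : Γ →* ∀ i, Γ ⧸ f i := MonoidHom.pi fun i => QuotientGroup.mk' (f i)
  have hker : π.ker = ⨅ i, f i := by
    ext x
    simp [π, MonoidHom.mem_ker, funext_iff, Subgroup.mem_iInf, QuotientGroup.eq_one_iff]
  rw [← hker, Subgroup.index_ker]
  have h1 : Nat.card π.range ∣ Nat.card (∀ i, Γ ⧸ f i) := Subgroup.card_subgroup_dvd_card _
  refine h1.trans ?_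
  rw [Nat.card_pi, Nat.card_eq_fintype_card (α := ι), ← Finset.card_univ, ← Finset.prod_const]
  exact Finset.prod_dvd_prod_of_dvd _ _ fun i _ => hm i

section Action

variable [FaithfulSMul G Ω] [Finite Ω]

theorem free_of_action [IsPretransitive G Ω] (a : Ω) (U : Subgroup G)
    (hU : U ≤ stabilizer G a) (hn : U.Normal) : U = ⊥ := by
  rw [eq_bot_iff]
  intro x hx
  rw [Subgroup.mem_bot]
  apply FaithfulSMul.eq_of_smul_eq_smul (α := Ω)
  intro ω
  obtain ⟨g, rfl⟩ := MulAction.exists_smul_eq G a ω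
  have h1 : g⁻¹ * x * g ∈ U := by
    have := hn.conj_mem x hx g⁻¹
    simpa using this
  have h2 : (g⁻¹ * x * g) • a = a := hU h1
  rw [one_smul]
  calc x • g • a = g • (g⁻¹ * x * g) • a := by simp [mul_smul]
    _ = g • a := by rw [h2]

/-- The pair associated with two points. -/
theorem pair_of_action (hprim : IsPreprimitive G Ω) (a b : Ω)
    (hd : Nat.card (orbit (stabilizer G a) b) ≠ 1) : Pair (stabilizer G a) (stabilizer G b) := by
  have hne : stabilizer G a ≠ stabilizer G b := by
    intro h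
    apply hd
    have : orbit (stabilizer G a) b = {b} := by
      ext x
      constructor
      · rintro ⟨t, rfl⟩
        have h1 : (t : G) • b = b := (h ▸ t.2 : (t : G) ∈ stabilizer G b)
        exact h1
      · rintro rfl
        exact mem_orbit_self _
    rw [this]
    simp
  have hab : a ≠ b := by
    rintro rfl
    exact hne rfl
  have hnt : Nontrivial Ω := ⟨⟨a, b, hab⟩⟩
  obtain ⟨g, rfl⟩ := MulAction.exists_smul_eq G a b
  refine ⟨(isCoatom_stabilizer_iff_preprimitive G a).mpr hprim,
    (isCoatom_stabilizer_iff_preprimitive G _).mpr hprim, hne, free_of_action a, free_of_action _, g, ?_⟩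
  exact stabilizer_smul_eq_stabilizer_map_conj g a

/-- The first core is the kernel on the orbit. -/
theorem mem_A1_iff (a b : Ω) {x : G} :
    x ∈ A1 (stabilizer G a) (stabilizer G b) ↔
      x ∈ stabilizer G a ∧ ∀ s ∈ orbit (stabilizer G a) b, x • s = s := by
  rw [mem_cor]
  constructor
  · rintro ⟨hx, h⟩
    refine ⟨hx, ?_⟩
    rintro _ ⟨t, rfl⟩
    have h1 := (h _ (Subgroup.inv_mem _ t.2)).2
    have h2 : ((t : G)⁻¹ * x * (t : G)⁻¹⁻¹) • b = b := h1
    show x • (t : G) • b = (t : G) • b
    rw [inv_inv] at h2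
    calc x • (t : G) • b = (t : G) • ((t : G)⁻¹ * x * t) • b := by simp [mul_smul]
      _ = (t : G) • b := by rw [h2]
  · rintro ⟨hx, h⟩
    refine ⟨hx, fun t ht => ⟨Subgroup.mul_mem _ (Subgroup.mul_mem _ ht hx) (Subgroup.inv_mem _ ht), ?_⟩⟩
    have h1 : (t⁻¹ : G) • b ∈ orbit (stabilizer G a) b := ⟨⟨t⁻¹, Subgroup.inv_mem _ ht⟩, rfl⟩
    have h2 := h _ h1
    show (t * x * t⁻¹) • b = b
    rw [mul_smul, mul_smul, h2]
    simp

theorem relIndex_A1_dvd (a b : Ω) :
    (A1 (stabilizer G a) (stabilizer G b)).relIndex (stabilizer G a) ∣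
      (Nat.card (orbit (stabilizer G a) b)).factorial := by
  refine relIndex_dvd_factorial ?_ ?_
  · intro h hh s hs
    exact (mem_orbit_iff.mp hs).elim fun t ht => ⟨⟨h, hh⟩ * t, by
      rw [← ht]; exact mul_smul _ _ _⟩
  · intro x hx
    rw [mem_A1_iff]
    exact ⟨fun h => h.2, fun h => ⟨hx, h⟩⟩

theorem relIndex_D_dvd (a b : Ω) :
    (A1 (stabilizer G a) (stabilizer G b) ⊓ A1 (stabilizer G b) (stabilizer G a)).relIndex
      (A1 (stabilizer G a) (stabilizer G b)) ∣
      (Nat.card (orbit (stabilizer G b) a) - 1).factorial := by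
  have hcard : Nat.card ↥(orbit (stabilizer G b) a \ {a}) = Nat.card (orbit (stabilizer G b) a) - 1 := by
    rw [Nat.card_coe_set_eq, Nat.card_coe_set_eq]
    exact Set.ncard_sdiff_singleton_of_mem (mem_orbit_self a)
  rw [← hcard]
  refine relIndex_dvd_factorial ?_ ?_
  · intro h hh s hs
    have hhb : h ∈ stabilizer G b := A1_le_right _ _ hh
    have hha : h ∈ stabilizer G a := A1_le_left _ _ hh
    refine ⟨(mem_orbit_iff.mp hs.1).elim fun t ht => ⟨⟨h, hhb⟩ * t, by
      rw [← ht]; exact mul_smul _ _ _⟩, ?_⟩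
    intro he
    apply hs.2
    have he' : h • s = a := he
    have h2 : h • a = a := hha
    rw [← h2] at he'
    exact smul_left_cancel h he'
  · intro x hx
    have hxa : x ∈ stabilizer G a := A1_le_left _ _ hx
    have hxb : x ∈ stabilizer G b := A1_le_right _ _ hx
    rw [Subgroup.mem_inf, mem_A1_iff b a]
    constructor
    · rintro ⟨-, -, h⟩ s hs
      exact h s hs.1
    · intro h
      refine ⟨hx, hxb, fun s hs => ?_⟩
      by_cases hsa : s = a
      · rw [hsa]; exact hxa
      · exact h s ⟨hs, hsa⟩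

/-- The second core as an intersection. -/
theorem relIndex_X_dvd (a b : Ω) (m : ℕ)
    (hm : (A1 (stabilizer G a) (stabilizer G b) ⊓ A1 (stabilizer G b) (stabilizer G a)).relIndex
      (A1 (stabilizer G a) (stabilizer G b)) ∣ m) :
    (A2 (stabilizer G a) (stabilizer G b)).relIndex (A1 (stabilizer G a) (stabilizer G b)) ∣
      m ^ Nat.card (orbit (stabilizer G a) b) := by
  set M := stabilizer G a with hM
  set N := stabilizer G b with hN
  set A := A1 M N with hA
  set B := A1 N M with hB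
  set D := A ⊓ B with hD
  have hMA : M ≤ Subgroup.normalizer (A : Set G) := M_norm_A1 M N
  have hAD : A ≤ Subgroup.normalizer (D : Set G) := fun x hx =>
    mem_norm_inf (Subgroup.le_normalizer hx) (M_norm_A1 N M (A1_le_right M N hx))
  have hKD : ∀ k, k ∈ M → k ∈ N → k ∈ Subgroup.normalizer (D : Set G) := fun k h1 h2 =>
    mem_norm_inf (hMA h1) (M_norm_A1 N M h2)
  have hfin : Finite (orbit M b) := Set.toFinite _
  choose t ht using fun i : orbit M b => mem_orbit_iff.mp i.2
  let f : orbit M b → Subgroup ↥A := fun i => (cj ((t i : M) : G) D).subgroupOf A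
  have hfn : ∀ i, (f i).Normal := fun i =>
    Subgroup.normal_subgroupOf_of_le_normalizer (le_norm_cj (hMA (t i).2) hAD)
  have hfi : ∀ i, (f i).index ∣ m := by
    intro i
    have h1 : (f i).index = (cj ((t i : M) : G) D).relIndex A := rfl
    have h2 : (cj ((t i : M) : G) D).relIndex A = D.relIndex A := by
      conv_lhs => rw [← cj_eq_of_norm (hMA (t i).2)]
      exact Subgroup.relIndex_map_map_of_injective _ _ (MulAut.conj _).injective
    rw [h1, h2]
    exact hm
  have hX : (A2 M N).subgroupOf A = ⨅ i, f i := by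
    ext x
    rw [Subgroup.mem_subgroupOf, Subgroup.mem_iInf]
    constructor
    · intro hx i
      rw [Subgroup.mem_subgroupOf, mem_cj]
      have h2 := (mem_cor.mp hx).2 _ (Subgroup.inv_mem _ (t i).2)
      rw [inv_inv] at h2
      exact h2
    · intro h
      rw [mem_cor]
      refine ⟨A1_le_left M N x.2, fun τ hτ => ?_⟩
      let i : orbit M b := ⟨(τ⁻¹ : G) • b, ⟨⟨τ⁻¹, Subgroup.inv_mem _ hτ⟩, rfl⟩⟩
      have h1 := h i
      rw [Subgroup.mem_subgroupOf, mem_cj] at h1
      have hk : τ * ((t i : M) : G) ∈ M := Subgroup.mul_mem _ hτ (t i).2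
      have hk2 : τ * ((t i : M) : G) ∈ N := by
        show (τ * ((t i : M) : G)) • b = b
        have h3 : ((t i : M) : G) • b = (τ⁻¹ : G) • b := ht i
        rw [mul_smul, h3, smul_inv_smul]
      have h4 := conj_mem_of_norm (hKD _ hk hk2) h1
      have e : (τ * ((t i : M) : G)) * (((t i : M) : G)⁻¹ * (x : G) * ((t i : M) : G)) * (τ * ((t i : M) : G))⁻¹ =
          τ * x * τ⁻¹ := by group
      rwa [e] at h4
  have := index_iInf_dvd f hfn m hfi
  rwa [← hX] at this

theorem card_orbit_eq (a b : Ω) [IsPretransitive G Ω] :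
    Nat.card (orbit (stabilizer G b) a) = Nat.card (orbit (stabilizer G a) b) := by
  have key : ∀ c d : Ω, Nat.card (orbit (stabilizer G c) d) * Nat.card ↥(stabilizer G c ⊓ stabilizer G d) =
      Nat.card (stabilizer G c) := by
    intro c d
    have h1 : Nat.card (orbit (stabilizer G c) d) = (stabilizer (stabilizer G c) d).index := by
      rw [index_stabilizer, Nat.card_coe_set_eq]
    have h2 : stabilizer (stabilizer G c) d = (stabilizer G d).subgroupOf (stabilizer G c) := by
      ext x
      rw [Subgroup.mem_subgroupOf]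
      rfl
    have h3 : Nat.card ↥((stabilizer G d).subgroupOf (stabilizer G c)) =
        Nat.card ↥(stabilizer G c ⊓ stabilizer G d) := by
      refine Nat.card_congr
        { toFun := fun x => ⟨x.1.1, x.1.2, x.2⟩
          invFun := fun x => ⟨⟨x.1, x.2.1⟩, x.2.2⟩
          left_inv := fun x => rfl
          right_inv := fun x => rfl }
    rw [h1, h2, ← h3, mul_comm]
    exact Subgroup.card_mul_index _
  have hM : Nat.card (stabilizer G a) = Nat.card (stabilizer G b) := by
    obtain ⟨g, rfl⟩ := MulAction.exists_smul_eq G a b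
    rw [stabilizer_smul_eq_stabilizer_map_conj]
    exact (Subgroup.card_map_of_injective (MulAut.conj g).injective).symm
  have h1 := key a b
  have h2 := key b a
  rw [inf_comm, ← hM, ← h1] at h2
  exact Nat.eq_of_mul_eq_mul_right Nat.card_pos h2

/-- The index bound for the second core. -/
theorem relIndex_A2_dvd (a b : Ω) [IsPretransitive G Ω] {d : ℕ} (hd : Nat.card (orbit (stabilizer G a) b) = d) :
    (A2 (stabilizer G a) (stabilizer G b)).relIndex (stabilizer G a) ∣
      d.factorial * ((d - 1).factorial) ^ d := by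
  have h1 := relIndex_A1_dvd (G := G) a b
  have h2 := relIndex_D_dvd (G := G) a b
  rw [card_orbit_eq a b, hd] at h2
  have h3 := relIndex_X_dvd (G := G) a b _ h2
  rw [hd] at h1 h3
  rw [← Subgroup.relIndex_mul_relIndex _ _ _ (A2_le_A _ _) (A1_le_left _ _), mul_comm]
  exact mul_dvd_mul h1 h3

theorem card_stabilizer_eq (a b : Ω) [IsPretransitive G Ω] :
    Nat.card (stabilizer G a) = Nat.card (stabilizer G b) := by
  obtain ⟨g, rfl⟩ := MulAction.exists_smul_eq G a b
  rw [stabilizer_smul_eq_stabilizer_map_conj]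
  exact (Subgroup.card_map_of_injective (MulAut.conj g).injective).symm

/-- A trivial second core bounds the order of the point stabilizer. -/
theorem card_dvd_of_bot (a b : Ω) [IsPretransitive G Ω] {d : ℕ}
    (hd : Nat.card (orbit (stabilizer G a) b) = d)
    (h : A2 (stabilizer G a) (stabilizer G b) = ⊥ ∨ A2 (stabilizer G b) (stabilizer G a) = ⊥) :
    Nat.card (stabilizer G a) ∣ d.factorial * ((d - 1).factorial) ^ d := by
  rcases h with h | h
  · have h1 := relIndex_A2_dvd (G := G) a b hd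
    rwa [h, Subgroup.relIndex_bot_left] at h1
  · have h1 := relIndex_A2_dvd (G := G) b a (d := d) (by rw [card_orbit_eq a b, hd])
    rwa [h, Subgroup.relIndex_bot_left, ← card_stabilizer_eq a b] at h1

/-- Fitting-free constituent. -/
theorem fitting_inf_bot (hprim : IsPreprimitive G Ω) (a b : Ω)
    (hd : Nat.card (orbit (stabilizer G a) b) ≠ 1)
    (hF : fittingSubgroup ↥(((stabilizer G b).subgroupOf (stabilizer G a)).map
      (MulAction.toPermHom (stabilizer G a) (orbit (stabilizer G a) b))) = ⊥) :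
    fittingSubgroup ↥(stabilizer G a ⊓ stabilizer G b) = ⊥ := by
  have P := pair_of_action hprim a b hd
  set M := stabilizer G a with hM
  set N := stabilizer G b with hN
  by_contra hne
  rw [fittingSubgroup_eq_iSup_pCore] at hne
  have hex : ∃ r : Nat.Primes, pCore (r : ℕ) ↥(M ⊓ N) ≠ ⊥ := by
    by_contra hcon
    push_neg at hcon
    apply hne
    exact le_bot_iff.mp (iSup_le fun r => le_of_eq (hcon r))
  obtain ⟨⟨r, hr⟩, hrne⟩ := hex
  have := Fact.mk hr
  set K := M ⊓ N with hK
  set R := Oc r K with hRdef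
  have hRne : R ≠ ⊥ := fun h => hrne ((Oc_eq_bot_iff K r).mp h)
  have hRK : R ≤ K := Oc_le r K
  have hRM : R ≤ M := hRK.trans inf_le_left
  have hRN : R ≤ N := hRK.trans inf_le_right
  have hRp : IsPGroup r R := isPGroup_Oc r K
  -- `R` acts trivially on the orbit
  have hRA : R ≤ A1 M N := by
    let φ := MulAction.toPermHom M (orbit M b)
    let Im : Subgroup (Equiv.Perm (orbit M b)) := (N.subgroupOf M).map φ
    let R₀ : Subgroup M := R.subgroupOf M
    let R₁ : Subgroup ↥Im := (R₀.map φ).subgroupOf Im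
    have hR₀p : IsPGroup r R₀ := hRp.comap_subtype
    have hR₁p : IsPGroup r R₁ := (hR₀p.map φ).comap_subtype
    have hR₁n : R₁.Normal := by
      constructor
      rintro ⟨_, k, hk, rfl⟩ ⟨x, hx, hxe⟩ ⟨_, k', hk', rfl⟩
      rw [Subgroup.mem_subgroupOf]
      simp only [Subgroup.coe_mul, InvMemClass.coe_inv]
      refine ⟨k' * x * k'⁻¹, ?_, ?_⟩
      · have hk'K : (k' : G) ∈ K := ⟨k'.2, hk'⟩
        exact conj_mem_Oc hk'K hx
      · have hxe' : φ x = φ k := hxe
        simp [map_mul, map_inv, hxe']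
    have hnil : Group.IsNilpotent R₁ := hR₁p.isNilpotent
    have hle := le_fittingSubgroup hR₁n hnil
    have hF' : fittingSubgroup ↥Im = ⊥ := hF
    rw [hF', le_bot_iff] at hle
    intro x hx
    rw [mem_A1_iff]
    refine ⟨hRM hx, ?_⟩
    have hxN : (⟨x, hRM hx⟩ : M) ∈ N.subgroupOf M := Subgroup.mem_subgroupOf.mpr (hRN hx)
    have h1 : (⟨φ ⟨x, hRM hx⟩, ⟨_, hxN, rfl⟩⟩ : ↥Im) ∈ R₁ := by
      rw [Subgroup.mem_subgroupOf]
      exact ⟨⟨x, hRM hx⟩, Subgroup.mem_subgroupOf.mpr hx, rfl⟩
    rw [hle, Subgroup.mem_bot] at h1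
    have h2 : φ ⟨x, hRM hx⟩ = 1 := congrArg Subtype.val h1
    intro s hs
    have h3 := congrArg (fun f : Equiv.Perm (orbit M b) => ((f ⟨s, hs⟩ : orbit M b) : Ω)) h2
    exact h3
  have hRA' : R = Oc r (A1 M N) := by
    apply le_antisymm
    · exact le_Oc hRA hRp fun h hh x hx => conj_mem_Oc (le_inf (A1_le_left M N) (A1_le_right M N) hh) hx
    · exact Oc_le_Oc_of_normal (le_inf (A1_le_left M N) (A1_le_right M N))
        (inf_le_left.trans (M_norm_A1 M N))
  have hMR : M ≤ Subgroup.normalizer (R : Set G) := by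
    rw [hRA']
    exact (M_norm_A1 M N).trans (norm_le_norm_Oc _ _)
  have hRQ : R ≤ Subgroup.normalizer (Oc r N : Set G) := hRN.trans (M_norm_Oc N r)
  have hQ2R : Oc r N ≤ R := by
    by_contra hcon
    have hTp : IsPGroup r ↥(R ⊔ Oc r N) := IsPGroup.to_sup_of_normal_right' hRp (isPGroup_Oc r N) hRQ
    have hlt : R < R ⊔ Oc r N := by
      refine lt_of_le_of_ne le_sup_left fun h => hcon ?_
      rw [h]
      exact le_sup_right
    obtain ⟨x, hxT, hxR, hxn⟩ := exists_mem_normalizer_of_lt hTp hlt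
    have hxM : x ∈ M := P.symm.mem_of_norm hRne hRM hMR hxn
    obtain ⟨u, hu, v, hv, rfl⟩ := exists_mul_of_mem_sup hRQ hxT
    have hvM : v ∈ M := by
      have := M.mul_mem (M.inv_mem (hRM hu)) hxM
      simpa using this
    have hvR : v ∈ R := by
      have hle : Oc r N ⊓ M ≤ Oc r K := by
        refine le_Oc (fun y hy => ⟨hy.2, Oc_le r N hy.1⟩) ((isPGroup_Oc r N).to_le inf_le_left) ?_
        intro h hh y hy
        exact ⟨conj_mem_Oc hh.2 hy.1, Subgroup.mul_mem _ (Subgroup.mul_mem _ hh.1 hy.2) (Subgroup.inv_mem _ hh.1)⟩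
      exact hle ⟨hv, hvM⟩
    exact hxR (Subgroup.mul_mem _ hu hvR)
  have hRQ1 : R ≤ Oc r M := by
    rw [hRA']
    exact Oc_A_le_M M N r
  obtain ⟨g, hg⟩ := P.symm.conj
  have heq : Oc r N = Oc r M :=
    Subgroup.eq_of_le_of_card_ge (hQ2R.trans hRQ1) (card_Oc_le_of_conj hg)
  have hbot : Oc r M = ⊥ := by
    refine P.bot_of_both (Oc_le r M) (by rw [← heq]; exact Oc_le r N) (M_norm_Oc M r) ?_
    rw [← heq]
    exact M_norm_Oc N r
  apply hRne
  rwa [hbot, le_bot_iff] at hRQ1

end Action

end Cfsg.Agent.Lib.ThompsonWielandtPerm
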