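import Mathlib
import Cfsg.Agent.Lib.ThompsonWielandtPerm

/-!
# Permutation quotients containing the alternating group

`APw f Q`: `f` is a homomorphism from a subgroup `R` (of the ambient group) to `Sym(n)`, with kernel `Q`,
whose image contains `Alt(n)`.
-/

set_option autoImplicit false
set_option linter.unusedSectionVars false
set_option linter.unusedVariables false

open Cfsg

namespace Cfsg.Agent.Lib.KnappA

open Cfsg.Agent.Lib.ThompsonWielandt Cfsg.Agent.Lib.ThompsonTrans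
open Equiv

variable {G : Type*} [Group G]

theorem perm_eq_one_of_commute_alt {n : ℕ} (hn : 5 ≤ n) (σ : Perm (Fin n))
    (h : ∀ a ∈ alternatingGroup (Fin n), σ * a = a * σ) : σ = 1 := by
  by_contra hσ
  obtain ⟨x, hx⟩ : ∃ x, σ x ≠ x := by
    by_contra hcon
    push_neg at hcon
    exact hσ (Equiv.ext hcon)
  set y := σ x with hy
  have hcard : 2 < (Finset.univ \ {x, y} : Finset (Fin n)).card := by
    have h1 : ({x, y} : Finset (Fin n)).card ≤ 2 := Finset.card_le_two
    have h2 := Finset.le_card_sdiff ({x, y} : Finset (Fin n)) Finset.univ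
    simp only [Finset.card_univ, Fintype.card_fin] at h2
    omega
  obtain ⟨z, hz, w, hw, v, hv, hzw, hzv, hwv⟩ := Finset.two_lt_card.mp hcard
  simp only [Finset.mem_sdiff, Finset.mem_univ, true_and, Finset.mem_insert, Finset.mem_singleton, not_or] at hz hw hv
  have hc : swap x z * swap w v ∈ alternatingGroup (Fin n) := by
    rw [Equiv.Perm.mem_alternatingGroup, map_mul, Equiv.Perm.sign_swap (Ne.symm hz.1), Equiv.Perm.sign_swap hwv]
    simp
  have h1 := congrArg (fun τ : Perm (Fin n) => τ x) (h _ hc)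
  simp only [Perm.mul_apply] at h1
  rw [swap_apply_of_ne_of_ne (Ne.symm hw.1) (Ne.symm hv.1), swap_apply_left,
    swap_apply_of_ne_of_ne (Ne.symm hw.2) (Ne.symm hv.2),
    swap_apply_of_ne_of_ne hx (Ne.symm hz.2)] at h1
  exact hz.1 (σ.injective h1)

theorem alt_simple {n : ℕ} (hn : 5 ≤ n) : IsSimpleGroup (alternatingGroup (Fin n)) :=
  alternatingGroup.isSimpleGroup (by simpa using hn)

theorem alt_not_solvable {n : ℕ} (hn : 5 ≤ n) : ¬ Group.IsSolvable (alternatingGroup (Fin n)) := by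
  intro hs
  have := alt_simple hn
  have h1 := (alternatingGroup.isMulCommutative_iff_card_le_three (α := Fin n))
  have h2 : IsMulCommutative (alternatingGroup (Fin n)) := by
    have := IsSimpleGroup.comm_iff_isSolvable (G := alternatingGroup (Fin n))
    exact ⟨⟨fun a b => this.mpr hs a b⟩⟩
  have h3 := h1.mp h2
  simp at h3
  omega

/-- witness form -/
structure APw {R : Subgroup G} {n : ℕ} (f : R →* Perm (Fin n)) (Q : Subgroup G) : Prop where
  le : Q ≤ R
  ker : ∀ x : R, f x = 1 ↔ (x : G) ∈ Q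
  alt : alternatingGroup (Fin n) ≤ f.range

def AP (R Q : Subgroup G) (n : ℕ) : Prop := ∃ f : R →* Perm (Fin n), APw f Q

/-- restriction -/
abbrev res {R T : Subgroup G} (hT : T ≤ R) {n : ℕ} (f : R →* Perm (Fin n)) : T →* Perm (Fin n) :=
  f.comp (Subgroup.inclusion hT)

variable {R Q E T : Subgroup G} {n : ℕ} {f : R →* Perm (Fin n)}

theorem APw.res_of (h : APw f Q) (hT : T ≤ R) (hA : alternatingGroup (Fin n) ≤ (res hT f).range) :
    APw (res hT f) (T ⊓ Q) := by
  refine ⟨inf_le_left, ?_, hA⟩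
  rintro ⟨x, hx⟩
  have := h.ker ⟨x, hT hx⟩
  show f ⟨x, hT hx⟩ = 1 ↔ x ∈ T ⊓ Q
  rw [this, Subgroup.mem_inf]
  simp [hx]

theorem APw.norm (h : APw f Q) : R ≤ Subgroup.normalizer (Q : Set G) := by
  intro r hr
  rw [Subgroup.mem_normalizer_iff]
  intro x
  constructor
  · intro hx
    have hxR := h.le hx
    have hq := (h.ker ⟨x, hxR⟩).mpr hx
    refine (h.ker ⟨r * x * r⁻¹, R.mul_mem (R.mul_mem hr hxR) (R.inv_mem hr)⟩).mp ?_
    have e : (⟨r * x * r⁻¹, R.mul_mem (R.mul_mem hr hxR) (R.inv_mem hr)⟩ : R) = ⟨r, hr⟩ * ⟨x, hxR⟩ * ⟨r, hr⟩⁻¹ := rfl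
    rw [e, map_mul, map_mul, hq]
    simp
  · intro hx
    have hxR' := h.le hx
    have hxR : x ∈ R := by
      have := R.mul_mem (R.mul_mem (R.inv_mem hr) hxR') hr
      simpa [mul_assoc] using this
    have hq := (h.ker ⟨_, hxR'⟩).mpr hx
    refine (h.ker ⟨x, hxR⟩).mp ?_
    have e : (⟨r * x * r⁻¹, hxR'⟩ : R) = ⟨r, hr⟩ * ⟨x, hxR⟩ * ⟨r, hr⟩⁻¹ := rfl
    rw [e, map_mul, map_mul, map_inv] at hq
    have h3 : f ⟨r, hr⟩ * f ⟨x, hxR⟩ * (f ⟨r, hr⟩)⁻¹ = 1 := hq
    have h4 : f ⟨r, hr⟩ * f ⟨x, hxR⟩ = f ⟨r, hr⟩ := by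
      have := congrArg (· * f ⟨r, hr⟩) h3
      simpa using this
    simpa using h4

/-- A normal subgroup outside the kernel has image containing `Alt(n)`. -/
theorem APw.image (h : APw f Q) (hn : 5 ≤ n) (hE : E ≤ R) (hnE : R ≤ Subgroup.normalizer (E : Set G))
    (hEQ : ¬ E ≤ Q) : alternatingGroup (Fin n) ≤ (res hE f).range := by
  obtain ⟨e, heE, heQ⟩ := Set.not_subset.mp hEQ
  have hσ : f ⟨e, hE heE⟩ ≠ 1 := fun h1 => heQ ((h.ker _).mp h1)
  set σ := f ⟨e, hE heE⟩ with hσd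
  have hex : ∃ a ∈ alternatingGroup (Fin n), σ * a ≠ a * σ := by
    by_contra hcon
    push_neg at hcon
    exact hσ (perm_eq_one_of_commute_alt hn σ hcon)
  obtain ⟨a, haA, hne⟩ := hex
  obtain ⟨r, hr⟩ := h.alt haA
  -- the image
  set I := (res hE f).range with hI
  -- commutator lies in the image
  have hcomm : σ * a * σ⁻¹ * a⁻¹ ∈ I := by
    have hmem : (e * ((r : G) * e⁻¹ * (r : G)⁻¹)) ∈ E :=
      E.mul_mem heE (conj_mem_of_norm (hnE r.2) (E.inv_mem heE))
    refine ⟨⟨_, hmem⟩, ?_⟩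
    have e1 : (Subgroup.inclusion hE ⟨_, hmem⟩ : R) = ⟨e, hE heE⟩ * (r * ⟨e, hE heE⟩⁻¹ * r⁻¹) := rfl
    simp only [MonoidHom.comp_apply]
    rw [e1, map_mul, map_mul, map_mul, map_inv, map_inv, ← hσd, hr]
    group
  have hcommA : σ * a * σ⁻¹ * a⁻¹ ∈ alternatingGroup (Fin n) := by
    rw [Equiv.Perm.mem_alternatingGroup] at haA ⊢
    simp [haA]
  have hne1 : σ * a * σ⁻¹ * a⁻¹ ≠ 1 := by
    intro h1
    apply hne
    have : σ * a * σ⁻¹ = a := by
      have := congrArg (· * a) h1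
      simpa using this
    have h2 := congrArg (· * σ) this
    simpa using h2
  -- I ∩ A is normal in A
  have := alt_simple hn
  have hnorm : ((I.subgroupOf (alternatingGroup (Fin n)))).Normal := by
    constructor
    intro x hx b
    obtain ⟨r', hr'⟩ := h.alt b.2
    rw [Subgroup.mem_subgroupOf] at hx ⊢
    obtain ⟨y, hy⟩ := hx
    have hmem : (r' : G) * (y : G) * (r' : G)⁻¹ ∈ E := conj_mem_of_norm (hnE r'.2) y.2
    refine ⟨⟨_, hmem⟩, ?_⟩
    have e1 : (Subgroup.inclusion hE ⟨_, hmem⟩ : R) = r' * (Subgroup.inclusion hE y) * r'⁻¹ := rfl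
    simp only [MonoidHom.comp_apply] at hy ⊢
    rw [e1, map_mul, map_mul, map_inv, hy, hr']
    simp
  rcases IsSimpleGroup.eq_bot_or_eq_top_of_normal _ hnorm with hb | ht
  · exfalso
    have : (⟨_, hcommA⟩ : alternatingGroup (Fin n)) ∈ I.subgroupOf (alternatingGroup (Fin n)) := by
      rw [Subgroup.mem_subgroupOf]
      exact hcomm
    rw [hb, Subgroup.mem_bot] at this
    exact hne1 (congrArg Subtype.val this)
  · intro x hx
    have : (⟨x, hx⟩ : alternatingGroup (Fin n)) ∈ I.subgroupOf (alternatingGroup (Fin n)) := by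
      rw [ht]
      trivial
    rwa [Subgroup.mem_subgroupOf] at this

theorem APw.restrict (h : APw f Q) (hn : 5 ≤ n) (hE : E ≤ R) (hnE : R ≤ Subgroup.normalizer (E : Set G))
    (hEQ : ¬ E ≤ Q) : APw (res hE f) (E ⊓ Q) :=
  h.res_of hE (h.image hn hE hnE hEQ)

theorem AP.restrict (h : AP R Q n) (hn : 5 ≤ n) (hE : E ≤ R) (hnE : R ≤ Subgroup.normalizer (E : Set G))
    (hEQ : ¬ E ≤ Q) : AP E (E ⊓ Q) n := by
  obtain ⟨f, hf⟩ := h
  exact ⟨_, hf.restrict hn hE hnE hEQ⟩

theorem APw.le_normalizer_of_ap (h : APw f Q) : AP R Q n := ⟨f, h⟩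

theorem AP.le (h : AP R Q n) : Q ≤ R := by
  obtain ⟨f, hf⟩ := h
  exact hf.le

theorem AP.norm (h : AP R Q n) : R ≤ Subgroup.normalizer (Q : Set G) := by
  obtain ⟨f, hf⟩ := h
  exact hf.norm

/-- Prime property. -/
theorem AP.prime (h : AP R Q n) (hn : 5 ≤ n) {E₁ E₂ : Subgroup G} (h1 : E₁ ≤ R) (h2 : E₂ ≤ R)
    (hn1 : R ≤ Subgroup.normalizer (E₁ : Set G)) (hn2 : R ≤ Subgroup.normalizer (E₂ : Set G))
    (hq1 : ¬ E₁ ≤ Q) (hq2 : ¬ E₂ ≤ Q) : ¬ E₁ ⊓ E₂ ≤ Q := by
  obtain ⟨f, hf⟩ := h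
  have hA1 := hf.image hn h1 hn1 hq1
  have hA2 := hf.image hn h2 hn2 hq2
  have := alt_simple hn
  -- two non-commuting elements of A
  have hnc : ∃ a ∈ alternatingGroup (Fin n), ∃ b ∈ alternatingGroup (Fin n), a * b ≠ b * a := by
    by_contra hcon
    push_neg at hcon
    have h3 : IsMulCommutative (alternatingGroup (Fin n)) :=
      ⟨⟨fun a b => Subtype.ext (hcon a a.2 b b.2)⟩⟩
    have h4 := (alternatingGroup.isMulCommutative_iff_card_le_three (α := Fin n)).mp h3
    simp at h4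
    omega
  obtain ⟨a, ha, b, hb, hab⟩ := hnc
  obtain ⟨x, hx⟩ := hA1 ha
  obtain ⟨y, hy⟩ := hA2 hb
  intro hle
  have hmem : (x : G) * y * (x : G)⁻¹ * (y : G)⁻¹ ∈ E₁ ⊓ E₂ := by
    constructor
    · have h3 : (y : G) * (x : G)⁻¹ * (y : G)⁻¹ ∈ E₁ := conj_mem_of_norm (hn1 (h2 y.2)) (E₁.inv_mem x.2)
      have := E₁.mul_mem x.2 h3
      simpa [mul_assoc] using this
    · have h3 : (x : G) * y * (x : G)⁻¹ ∈ E₂ := conj_mem_of_norm (hn2 (h1 x.2)) y.2
      exact E₂.mul_mem h3 (E₂.inv_mem y.2)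
  have h5 := (hf.ker ⟨_, hf.le (hle hmem)⟩).mpr (hle hmem)
  have e1 : (⟨_, hf.le (hle hmem)⟩ : R) = Subgroup.inclusion h1 x * Subgroup.inclusion h2 y *
      (Subgroup.inclusion h1 x)⁻¹ * (Subgroup.inclusion h2 y)⁻¹ := rfl
  rw [e1, map_mul, map_mul, map_mul, map_inv, map_inv] at h5
  simp only [MonoidHom.comp_apply] at hx hy
  rw [hx, hy] at h5
  apply hab
  have h6 : a * b * a⁻¹ = b := by
    have := congrArg (· * b) h5
    simpa using this
  have h7 := congrArg (· * a) h6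
  simpa using h7

theorem le_norm_inf {R A B : Subgroup G} (hA : R ≤ Subgroup.normalizer (A : Set G))
    (hB : R ≤ Subgroup.normalizer (B : Set G)) : R ≤ Subgroup.normalizer ((A ⊓ B : Subgroup G) : Set G) := by
  intro r hr
  rw [Subgroup.mem_normalizer_iff]
  intro x
  have h1 := Subgroup.mem_normalizer_iff.mp (hA hr) x
  have h2 := Subgroup.mem_normalizer_iff.mp (hB hr) x
  simp only [Subgroup.mem_inf]
  rw [h1, h2]

theorem self_le_norm (R : Subgroup G) : R ≤ Subgroup.normalizer (R : Set G) :=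
  Subgroup.le_normalizer

/-- Finite prime property. -/
theorem AP.prime_iInf (h : AP R Q n) (hn : 5 ≤ n) {ι : Type*} [Finite ι] (E : ι → Subgroup G)
    (hE : ∀ i, E i ≤ R) (hnE : ∀ i, R ≤ Subgroup.normalizer (E i : Set G))
    (hne : Nonempty ι) (hle : (⨅ i, E i) ≤ Q) : ∃ i, E i ≤ Q := by
  by_contra hcon
  push_neg at hcon
  classical
  have := Fintype.ofFinite ι
  have hRQ : ¬ R ≤ Q := by
    obtain ⟨i⟩ := hne
    exact fun hh => hcon i ((hE i).trans hh)
  have key : ∀ s : Finset ι, (s.inf E ⊓ R ≤ R) ∧ R ≤ Subgroup.normalizer ((s.inf E ⊓ R : Subgroup G) : Set G) ∧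
      ¬ s.inf E ⊓ R ≤ Q := by
    intro s
    induction s using Finset.induction_on with
    | empty =>
      simp only [Finset.inf_empty, top_inf_eq]
      exact ⟨le_rfl, self_le_norm R, hRQ⟩
    | insert a s ha ih =>
      obtain ⟨h1, h2, h3⟩ := ih
      rw [Finset.inf_insert]
      have e : E a ⊓ s.inf E ⊓ R = E a ⊓ (s.inf E ⊓ R) := by rw [inf_assoc]
      rw [e]
      refine ⟨inf_le_right.trans h1, le_norm_inf (hnE a) h2, ?_⟩
      exact h.prime hn (hE a) h1 (hnE a) h2 (hcon a) h3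
  have h4 := (key Finset.univ).2.2
  apply h4
  refine le_trans inf_le_left (le_trans ?_ hle)
  rw [le_iInf_iff]
  intro i
  exact Finset.inf_le (Finset.mem_univ i)

theorem APw.relIndex_eq (h : APw f Q) : Q.relIndex R = Nat.card f.range := by
  have : Q.subgroupOf R = f.ker := by
    ext x
    rw [Subgroup.mem_subgroupOf, MonoidHom.mem_ker, h.ker]
  rw [Subgroup.relIndex, this, Subgroup.index_ker]

theorem AP.two_mul_relIndex_ge (h : AP R Q n) (hn : 2 ≤ n) : n.factorial ≤ 2 * Q.relIndex R := by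
  obtain ⟨f, hf⟩ := h
  rw [hf.relIndex_eq]
  haveI : Nontrivial (Fin n) := Fin.nontrivial_iff_two_le.mpr hn
  have h1 := Subgroup.card_le_of_le hf.alt
  have h2 := two_mul_nat_card_alternatingGroup (α := Fin n)
  rw [Nat.card_perm] at h2
  simp only [Nat.card_eq_fintype_card, Fintype.card_fin] at h2
  have h3 : Nat.card ↥(alternatingGroup (Fin n)) ≤ Nat.card ↥f.range := h1
  simp only [Nat.card_eq_fintype_card] at h3 ⊢
  omega

theorem AP.relIndex_dvd (h : AP R Q n) : Q.relIndex R ∣ n.factorial := by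
  obtain ⟨f, hf⟩ := h
  rw [hf.relIndex_eq]
  have := Subgroup.card_subgroup_dvd_card f.range
  rwa [Nat.card_perm, Nat.card_eq_fintype_card (α := Fin n), Fintype.card_fin] at this

theorem AP.relIndex_le (h : AP R Q n) : Q.relIndex R ≤ n.factorial :=
  Nat.le_of_dvd (Nat.factorial_pos n) h.relIndex_dvd

theorem big_fact {n : ℕ} (hn : 5 ≤ n) : 120 ≤ n.factorial := by
  have := Nat.factorial_le hn
  simpa [Nat.factorial] using this

/-- Same type: a containment of kernels is an equality. -/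
theorem AP.eq_of_le [Finite G] {Q' : Subgroup G} (h : AP R Q n) (h' : AP R Q' n) (hn : 5 ≤ n) (hle : Q ≤ Q') : Q = Q' := by
  by_contra hne
  have hnot : ¬ Q' ≤ Q := fun hh => hne (le_antisymm hle hh)
  have hr := h.restrict hn h'.le h'.norm hnot
  have h1 := hr.two_mul_relIndex_ge (by omega)
  have h2 := h'.two_mul_relIndex_ge (by omega)
  have h3 := h.relIndex_le
  have e1 : (Q' ⊓ Q).relIndex Q' = Q.relIndex Q' := Subgroup.inf_relIndex_left _ _
  rw [e1] at h1
  have h4 := Subgroup.relIndex_mul_relIndex Q Q' R hle h'.le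
  have h5 := big_fact hn
  rw [← h4] at h3
  have h6 : n.factorial * n.factorial ≤ (2 * Q.relIndex Q') * (2 * Q'.relIndex R) := Nat.mul_le_mul h1 h2
  have h7 : (2 * Q.relIndex Q') * (2 * Q'.relIndex R) = 4 * (Q.relIndex Q' * Q'.relIndex R) := by ring
  nlinarith

/-- A solvable normal subgroup lies in the kernel. -/
theorem AP.le_of_solvable (h : AP R Q n) (hn : 5 ≤ n) (hE : E ≤ R) (hnE : R ≤ Subgroup.normalizer (E : Set G))
    (hs : Group.IsSolvable E) : E ≤ Q := by
  obtain ⟨f, hf⟩ := h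
  by_contra hcon
  have hA := hf.image hn hE hnE hcon
  haveI := hs
  have h1 : Group.IsSolvable (res hE f).range := solvable_of_surjective (res hE f).rangeRestrict_surjective
  haveI := h1
  have h2 : Group.IsSolvable (alternatingGroup (Fin n)) :=
    solvable_of_solvable_injective (Subgroup.inclusion_injective hA)
  exact alt_not_solvable hn h2

/-- `R` is not solvable. -/
theorem AP.not_solvable [Finite G] (h : AP R Q n) (hn : 5 ≤ n) : ¬ Group.IsSolvable R := by
  intro hs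
  have h1 := h.le_of_solvable hn le_rfl (self_le_norm R) hs
  have h2 := h.two_mul_relIndex_ge (by omega)
  have h3 : Q.relIndex R = 1 := by
    rw [Subgroup.relIndex_eq_one]
    exact h1
  have := big_fact hn
  omega

/-- Conjugation. -/
theorem AP.cj (h : AP R Q n) (g : G) : AP (cj g R) (cj g Q) n := by
  obtain ⟨f, hf⟩ := h
  let e : R ≃* ThompsonWielandt.cj g R := R.equivMapOfInjective (MulAut.conj g).toMonoidHom (MulAut.conj g).injective
  refine ⟨f.comp e.symm.toMonoidHom, ?_, ?_, ?_⟩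
  · exact Subgroup.map_mono hf.le
  · intro x
    obtain ⟨y, rfl⟩ := e.surjective x
    simp only [MonoidHom.comp_apply, MulEquiv.coe_toMonoidHom, MulEquiv.symm_apply_apply]
    rw [hf.ker]
    constructor
    · intro hy
      exact ⟨y, hy, rfl⟩
    · rintro ⟨z, hz, hzy⟩
      have : z = y := (MulAut.conj g).injective hzy
      exact this ▸ hz
  · intro τ hτ
    obtain ⟨x, hx⟩ := hf.alt hτ
    refine ⟨e x, ?_⟩
    simp [hx]

theorem relIndex_cj (g : G) (A B : Subgroup G) : (ThompsonWielandt.cj g A).relIndex (ThompsonWielandt.cj g B) = A.relIndex B :=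
  Subgroup.relIndex_map_map_of_injective _ _ (MulAut.conj g).injective

theorem cj_cor (g : G) (M S : Subgroup G) : ThompsonWielandt.cj g (cor M S) = cor (ThompsonWielandt.cj g M) (ThompsonWielandt.cj g S) := by
  ext x
  rw [mem_cj, mem_cor, mem_cor, mem_cj]
  constructor
  · rintro ⟨h1, h2⟩
    refine ⟨h1, fun t ht => ?_⟩
    rw [mem_cj] at ht ⊢
    have := h2 _ ht
    convert this using 1
    group
  · rintro ⟨h1, h2⟩
    refine ⟨h1, fun t ht => ?_⟩
    have := h2 (g * t * g⁻¹) (mem_cj.mpr (by simpa [mul_assoc] using ht))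
    rw [mem_cj] at this
    convert this using 1
    group

theorem cj_inf (g : G) (A B : Subgroup G) : ThompsonWielandt.cj g (A ⊓ B) = ThompsonWielandt.cj g A ⊓ ThompsonWielandt.cj g B := by
  ext x
  simp only [Subgroup.mem_inf, mem_cj]

theorem cj_A1 (g : G) (M N : Subgroup G) : ThompsonWielandt.cj g (A1 M N) = A1 (ThompsonWielandt.cj g M) (ThompsonWielandt.cj g N) := by
  rw [A1, cj_cor, cj_inf]

theorem cj_mul (g h : G) (A : Subgroup G) : ThompsonWielandt.cj (g * h) A = ThompsonWielandt.cj g (ThompsonWielandt.cj h A) := by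
  ext x
  simp only [mem_cj]
  constructor <;> intro hx <;> convert hx using 1 <;> group

theorem cj_inv_cj (g : G) (A : Subgroup G) : ThompsonWielandt.cj g⁻¹ (ThompsonWielandt.cj g A) = A := by
  ext x
  simp only [mem_cj]
  constructor <;> intro hx <;> simpa [mul_assoc] using hx

theorem cj_cj_inv (g : G) (A : Subgroup G) : ThompsonWielandt.cj g (ThompsonWielandt.cj g⁻¹ A) = A := by
  ext x
  simp only [mem_cj]
  constructor <;> intro hx <;> simpa [mul_assoc] using hx

theorem cj_le_cj {g : G} {A B : Subgroup G} (h : A ≤ B) : ThompsonWielandt.cj g A ≤ ThompsonWielandt.cj g B :=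
  Subgroup.map_mono h

theorem cj_inj {g : G} {A B : Subgroup G} (h : ThompsonWielandt.cj g A = ThompsonWielandt.cj g B) : A = B := by
  have := congrArg (ThompsonWielandt.cj g⁻¹) h
  rwa [cj_inv_cj, cj_inv_cj] at this

end Cfsg.Agent.Lib.KnappA
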