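import Mathlib
import Cfsg.Agent.Lib.KnappA

/-!
# Knapp's theorem: the local analysis

For a pair of conjugate core-free maximal subgroups `M, N` with `M` inducing at least the alternating group
on `M / (M ∩ N)` and with a non-trivial kernel `A1 M N`: the same holds for `N` (`side_N`)
and `A1 M N ⊓ A1 N M = ⊥` (`inf_eq_bot`).
-/

set_option autoImplicit false
set_option linter.unusedSectionVars false
set_option linter.unusedVariables false

open Cfsg

namespace Cfsg.Agent.Lib.KnappB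

open Cfsg.Agent.Lib.ThompsonWielandt Cfsg.Agent.Lib.ThompsonTrans Cfsg.Agent.Lib.KnappA
open Equiv

variable {G : Type*} [Group G]

theorem cj_norm {A B : Subgroup G} (g : G) (h : A ≤ Subgroup.normalizer (B : Set G)) :
    cj g A ≤ Subgroup.normalizer (cj g B : Set G) := by
  intro x hx
  rw [mem_norm_cj]
  exact h (mem_cj.mp hx)

structure Side (M N : Subgroup G) (d : ℕ) : Prop where
  exM : ∃ (f : M →* Perm (Fin d)) (s : Fin d), APw f (A1 M N) ∧ ∀ x : M, f x s = s ↔ (x : G) ∈ N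
  apL : AP (M ⊓ N) (A1 M N) (d - 1)
  idx : (M ⊓ N).relIndex M = d

variable [Finite G]

theorem relIdx_ne (A B : Subgroup G) : A.relIndex B ≠ 0 := by
  exact Subgroup.index_ne_zero_of_finite

theorem A1_le_inf (M N : Subgroup G) : A1 M N ≤ M ⊓ N := cor_le_right _ _

theorem A1_le_inf' (M N : Subgroup G) : A1 N M ≤ M ⊓ N := by
  rw [inf_comm]
  exact A1_le_inf N M

theorem inf_le_norm_A1 (M N : Subgroup G) : M ⊓ N ≤ Subgroup.normalizer (A1 M N : Set G) :=
  inf_le_left.trans (M_le_norm_cor _ _)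

theorem inf_le_norm_A1' (M N : Subgroup G) : M ⊓ N ≤ Subgroup.normalizer (A1 N M : Set G) :=
  inf_le_right.trans (M_le_norm_cor _ _)

/-- Solvable second core: the quotients of `A1 M N` are small. -/
theorem relIndex_le_of_solvable {M N T : Subgroup G} {n : ℕ} (hn : 5 ≤ n) (hT : AP (A1 M N) T n)
    (hs : Group.IsSolvable (A2 M N)) : T.relIndex (A1 M N) ≤ (A1 N M).relIndex (M ⊓ N) := by
  set K := A1 M N with hK
  set K' := A1 N M with hK'
  have hX : A2 M N ≤ T := hT.le_of_solvable hn (A2_le_A M N)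
    ((A1_le_left M N).trans (M_norm_A2 M N)) hs
  -- the family
  let E : ↥M → Subgroup G := fun t => K ⊓ cj (t : G) K'
  have hcK : ∀ t : ↥M, cj (t : G) K = K := fun t => cj_eq_of_norm (M_le_norm_cor _ _ t.2)
  have hE : ∀ t, E t ≤ K := fun t => inf_le_left
  have hnE : ∀ t, K ≤ Subgroup.normalizer (E t : Set G) := by
    intro t
    refine le_norm_inf Subgroup.le_normalizer ?_
    have h1 : K ≤ Subgroup.normalizer (K' : Set G) := (A1_le_inf M N).trans (inf_le_norm_A1' M N)
    have h2 := cj_norm (t : G) h1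
    rwa [hcK t] at h2
  have hinf : (⨅ t, E t) ≤ T := by
    refine le_trans ?_ hX
    intro x hx
    rw [Subgroup.mem_iInf] at hx
    have h1 : x ∈ K := (hx 1).1
    rw [mem_cor]
    refine ⟨A1_le_left M N h1, fun t ht => ⟨?_, ?_⟩⟩
    · exact conj_mem_of_norm (M_le_norm_cor _ _ ht) h1
    · have h2 : x ∈ cj t⁻¹ K' := (hx ⟨t⁻¹, M.inv_mem ht⟩).2
      rw [mem_cj] at h2
      simpa using h2
  obtain ⟨t, ht⟩ := hT.prime_iInf hn E hE hnE ⟨1⟩ hinf
  have h3 : T.relIndex K ≤ (E t).relIndex K :=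
    Subgroup.relIndex_le_of_le_left ht (relIdx_ne _ _)
  have h4 : (E t).relIndex K = (cj (t : G) K').relIndex K := Subgroup.inf_relIndex_left _ _
  have h5 : (cj (t : G) K').relIndex K = K'.relIndex K := by
    conv_lhs => rw [← hcK t]
    exact relIndex_cj _ _ _
  have h6 : K'.relIndex K ≤ K'.relIndex (M ⊓ N) :=
    Subgroup.relIndex_le_of_le_right (A1_le_inf M N) (relIdx_ne _ _)
  omega

theorem solvable_of_isPGroup {A : Subgroup G} {p : ℕ} (hp : p.Prime) (h : IsPGroup p A) : Group.IsSolvable A := by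
  haveI := Fact.mk hp
  haveI : Group.IsNilpotent A := h.isNilpotent
  infer_instance

/-- Lemma Y. -/
theorem side_card {M N : Subgroup G} {d : ℕ} (P : Pair M N) (hd : 6 ≤ d) (S : Side M N d) (hK : A1 M N ≠ ⊥) :
    d.factorial ≤ 2 * (A1 N M).relIndex N := by
  by_contra hlt
  push_neg at hlt
  obtain ⟨g, hg⟩ := P.conj
  obtain ⟨fM, s, hf, hfix⟩ := S.exM
  set K := A1 M N with hKd
  set K' := A1 N M with hK'd
  set L := M ⊓ N with hL
  have hgN : cj g⁻¹ N = M := by rw [hg, cj_inv_cj]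
  have hd5 : 5 ≤ d := by omega
  have hd5' : 5 ≤ d - 1 := by omega
  have hfact : d.factorial = d * (d - 1).factorial := by
    obtain ⟨e, rfl⟩ : ∃ e, d = e + 1 := ⟨d - 1, by omega⟩
    simp [Nat.factorial_succ]
  have hfpos := Nat.factorial_pos (d - 1)
  have hapM : AP M K d := ⟨fM, hf⟩
  have hcardMN : Nat.card M = Nat.card N := by
    rw [hg]
    exact (Subgroup.card_map_of_injective (MulAut.conj g).injective).symm
  have hidxN : L.relIndex N = d := by
    have h1 : L.relIndex M * M.index = L.index := Subgroup.relIndex_mul_index inf_le_left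
    have h2 : L.relIndex N * N.index = L.index := Subgroup.relIndex_mul_index inf_le_right
    have h3 : L.relIndex M = d := S.idx
    have h4 : M.index = N.index := by
      have e1 := Subgroup.card_mul_index M
      have e2 := Subgroup.card_mul_index N
      rw [hcardMN, ← e2] at e1
      exact Nat.eq_of_mul_eq_mul_left Nat.card_pos e1
    rw [h3, ← h2, h4] at h1
    exact (Nat.eq_of_mul_eq_mul_right (Nat.pos_of_ne_zero Subgroup.index_ne_zero_of_finite) h1).symm
  have hK'L : K'.relIndex L * d = K'.relIndex N := by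
    rw [← hidxN]
    exact Subgroup.relIndex_mul_relIndex _ _ _ (A1_le_inf' M N) inf_le_right
  -- conjugates
  set K₁ := cj g⁻¹ K' with hK₁
  set K₂ := cj g⁻¹ K with hK₂
  set L' := cj g⁻¹ L with hL'
  have hK₁M : K₁ ≤ M := by rw [← hgN]; exact cj_le_cj (A1_le_left N M)
  have hK₁L' : K₁ ≤ L' := cj_le_cj (A1_le_inf' M N)
  have hnK₁ : M ≤ Subgroup.normalizer (K₁ : Set G) := by
    have := cj_norm g⁻¹ (M_le_norm_cor N (N ⊓ M))
    rwa [hgN] at this
  have hL'M : L' ≤ M := by rw [← hgN]; exact cj_le_cj inf_le_right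
  have hidxK₁ : K₁.relIndex M = K'.relIndex N := by
    rw [← hgN]
    exact relIndex_cj _ _ _
  -- Y1
  have hY1 : ¬ K₁ ≤ K := by
    intro hle
    have h1 := hapM.two_mul_relIndex_ge (by omega)
    have h2 : K.relIndex M ≤ K₁.relIndex M := Subgroup.relIndex_le_of_le_left hle (relIdx_ne _ _)
    omega
  have hk1 := hf.restrict hd5 hK₁M hnK₁ hY1
  -- Y2
  have hapL' : AP L' K₂ (d - 1) := S.apL.cj g⁻¹
  have hidxL' : K₁.relIndex L' = K'.relIndex L := relIndex_cj _ _ _
  have hnL' : L' ≤ Subgroup.normalizer (K₁ : Set G) := hL'M.trans hnK₁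
  have hY2 : ¬ K₁ ≤ K₂ := by
    intro hle
    have h1 := hapL'.two_mul_relIndex_ge (by omega)
    have h2 : K₂.relIndex L' ≤ K₁.relIndex L' := Subgroup.relIndex_le_of_le_left hle (relIdx_ne _ _)
    have h3 : (d - 1).factorial ≤ 2 * K'.relIndex L := by omega
    have h4 : d * (d - 1).factorial ≤ d * (2 * K'.relIndex L) := Nat.mul_le_mul_left d h3
    have h5 : d * (2 * K'.relIndex L) = 2 * (K'.relIndex L * d) := by ring
    rw [← hfact, h5, hK'L] at h4
    omega
  have hk2 : AP K₁ (K₁ ⊓ K₂) (d - 1) := hapL'.restrict hd5' hK₁L' hnL' hY2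
  -- Y3
  set X' := K₁ ⊓ K₂ with hX'
  have hX'K₁ : X' ≤ K₁ := inf_le_left
  have hnX' : K₁ ≤ Subgroup.normalizer (X' : Set G) :=
    le_norm_inf Subgroup.le_normalizer (hK₁L'.trans hapL'.norm)
  have hk1AP : AP K₁ (K₁ ⊓ K) d := ⟨_, hk1⟩
  have hY3 : ¬ X' ≤ K₁ ⊓ K := by
    intro hle
    have h1 := hk1AP.two_mul_relIndex_ge (by omega)
    have h2 : (K₁ ⊓ K).relIndex K₁ ≤ X'.relIndex K₁ := Subgroup.relIndex_le_of_le_left hle (relIdx_ne _ _)
    have h3 := hk2.relIndex_le
    have h4 : d * (d - 1).factorial ≤ 2 * (d - 1).factorial := by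
      rw [← hfact]
      omega
    have h5 := Nat.le_of_mul_le_mul_right h4 hfpos
    omega
  have hA := hk1.image hd5 hX'K₁ hnX' hY3
  have hK₂M : K₂ ≤ M := hapL'.le.trans hL'M
  have hAK₂ : alternatingGroup (Fin d) ≤ (res hK₂M fM).range := by
    intro τ hτ
    obtain ⟨x, hx⟩ := hA hτ
    exact ⟨⟨x.1, x.2.2⟩, hx⟩
  have hk3 : AP K₂ (K₂ ⊓ K) d := ⟨_, hf.res_of hK₂M hAK₂⟩
  have hcjK₂ : cj g K₂ = K := cj_cj_inv g K
  have hcjK₁ : cj g K₁ = K' := cj_cj_inv g K'
  set K₃ := cj g K with hK₃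
  have hT1 : AP K (K ⊓ K₃) d := by
    have := hk3.cj g
    rwa [cj_inf, hcjK₂] at this
  have hT2 : AP K' (K' ⊓ K₃) d := by
    have := hk1AP.cj g
    rwa [cj_inf, hcjK₁] at this
  -- Y4
  have hnsX : ¬ Group.IsSolvable (A2 M N) := by
    intro hs
    have h1 : (K ⊓ K₃).relIndex K ≤ K'.relIndex L := relIndex_le_of_solvable hd5 hT1 hs
    have h2 := hT1.two_mul_relIndex_ge (by omega)
    have h3 : 2 * (K'.relIndex L * d) < d * (d - 1).factorial * 1 := by
      rw [hK'L]
      rw [← hfact, mul_one]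
      exact hlt
    have h4 : 2 * K'.relIndex L < (d - 1).factorial := by
      have h5 : (2 * K'.relIndex L) * d < (d - 1).factorial * d := by nlinarith
      exact Nat.lt_of_mul_lt_mul_right h5
    have h6 : (d - 1).factorial ≤ d.factorial := Nat.factorial_le (by omega)
    omega
  have hnsY : ¬ Group.IsSolvable (A2 N M) := by
    intro hs
    have h1 : (K' ⊓ K₃).relIndex K' ≤ K.relIndex (N ⊓ M) := relIndex_le_of_solvable hd5 hT2 hs
    have h2 := hT2.two_mul_relIndex_ge (by omega)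
    have h3 : K.relIndex (N ⊓ M) ≤ (d - 1).factorial := by
      have e : N ⊓ M = M ⊓ N := inf_comm N M
      rw [e]
      exact S.apL.relIndex_le
    have h4 : d * (d - 1).factorial ≤ 2 * (d - 1).factorial := by
      rw [← hfact]
      omega
    have h5 := Nat.le_of_mul_le_mul_right h4 hfpos
    omega
  have hXne : A2 M N ≠ ⊥ := by
    intro h
    apply hnsX
    rw [h]
    infer_instance
  have hYne : A2 N M ≠ ⊥ := by
    intro h
    apply hnsY
    rw [h]
    infer_instance
  obtain ⟨p, hp, hpg, -⟩ := P.main hXne hYne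
  exact hnsX (solvable_of_isPGroup hp (hpg.to_le le_sup_left))

end Cfsg.Agent.Lib.KnappB
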