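import Mathlib
import Cfsg.Agent.Lib.KnappB

/-!
# Knapp's theorem: the intersection of the two kernels is trivial
-/

set_option autoImplicit false
set_option linter.unusedSectionVars false
set_option linter.unusedVariables false

open Cfsg

namespace Cfsg.Agent.Lib.KnappC

open Cfsg.Agent.Lib.ThompsonWielandt Cfsg.Agent.Lib.ThompsonTrans Cfsg.Agent.Lib.KnappA Cfsg.Agent.Lib.KnappB
open Equiv

variable {G : Type*} [Group G] [Finite G]

abbrev XX (M N : Subgroup G) : Subgroup G := A1 M N ⊓ A1 N M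

theorem XX_comm (M N : Subgroup G) : XX N M = XX M N := inf_comm _ _

theorem mem_norm_of_cj_eq {t : G} {X : Subgroup G} (h : cj t X = X) : t ∈ Subgroup.normalizer (X : Set G) := by
  rw [Subgroup.mem_normalizer_iff]
  intro x
  constructor
  · intro hx
    have : t * x * t⁻¹ ∈ cj t X := conj_mem_cj hx
    rwa [h] at this
  · intro hx
    rw [← h] at hx
    rw [mem_cj] at hx
    simpa [mul_assoc] using hx

structure Env (M N : Subgroup G) (d : ℕ) : Prop where
  P : Pair M N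
  S₁ : Side M N d
  S₂ : Side N M d
  hd : 6 ≤ d
  hK : A1 M N ≠ ⊥

variable {M N : Subgroup G} {d : ℕ}

theorem Env.apK (E : Env M N d) : AP (M ⊓ N) (A1 M N) (d - 1) := E.S₁.apL

theorem Env.apK' (E : Env M N d) : AP (M ⊓ N) (A1 N M) (d - 1) := by
  have e : N ⊓ M = M ⊓ N := inf_comm N M
  have := E.S₂.apL
  rwa [e] at this

theorem Env.h5 (E : Env M N d) : 5 ≤ d - 1 := by
  have := E.hd
  omega

theorem Env.ne (E : Env M N d) : A1 M N ≠ A1 N M := by
  intro h
  apply E.hK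
  refine E.P.bot_of_both (A1_le_left M N) ?_ (M_le_norm_cor _ _) ?_
  · rw [h]; exact A1_le_left N M
  · rw [h]; exact M_le_norm_cor _ _

theorem Env.nle (E : Env M N d) : ¬ A1 M N ≤ A1 N M :=
  fun h => E.ne (E.apK.eq_of_le E.apK' E.h5 h)

theorem Env.nle' (E : Env M N d) : ¬ A1 N M ≤ A1 M N :=
  fun h => E.ne (E.apK'.eq_of_le E.apK E.h5 h).symm

theorem Env.symm (E : Env M N d) : Env N M d :=
  ⟨E.P.symm, E.S₂, E.S₁, E.hd, fun h => E.nle' (h ▸ bot_le)⟩

theorem Env.apX (E : Env M N d) : AP (A1 M N) (XX M N) (d - 1) :=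
  E.apK'.restrict E.h5 (A1_le_inf M N) (inf_le_norm_A1 M N) E.nle

theorem Env.cjK (E : Env M N d) {t : G} (ht : t ∈ M) : cj t (A1 M N) = A1 M N :=
  cj_eq_of_norm (M_le_norm_cor _ _ ht)

theorem Env.apXt (E : Env M N d) {t : G} (ht : t ∈ M) : AP (A1 M N) (cj t (XX M N)) (d - 1) := by
  have := E.apX.cj t
  rwa [E.cjK ht] at this

theorem XX_le_K : XX M N ≤ A1 M N := inf_le_left

theorem XX_le_K' : XX M N ≤ A1 N M := inf_le_right

theorem XX_le_M : XX M N ≤ M := XX_le_K.trans (A1_le_left M N)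

theorem XX_le_N : XX M N ≤ N := XX_le_K'.trans (A1_le_left N M)

theorem inf_le_norm_XX (M N : Subgroup G) : M ⊓ N ≤ Subgroup.normalizer (XX M N : Set G) :=
  le_norm_inf (inf_le_norm_A1 M N) (inf_le_norm_A1' M N)

theorem Env.cjL (E : Env M N d) {t : G} (h1 : t ∈ M) (h2 : t ∈ N) : cj t (XX M N) = XX M N :=
  cj_eq_of_norm (inf_le_norm_XX M N ⟨h1, h2⟩)

theorem Env.K_le_norm (E : Env M N d) {t : G} (ht : t ∈ M) :
    A1 M N ≤ Subgroup.normalizer (cj t (XX M N) : Set G) := (E.apXt ht).norm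

theorem Env.X_le_norm (E : Env M N d) {t : G} (ht : t ∈ M) :
    XX M N ≤ Subgroup.normalizer (cj t (XX M N) : Set G) := XX_le_K.trans (E.K_le_norm ht)

theorem Env.K_le_normX (E : Env M N d) : A1 M N ≤ Subgroup.normalizer (XX M N : Set G) :=
  (A1_le_inf M N).trans (inf_le_norm_XX M N)

/-- Dichotomy. -/
theorem Env.dich (E : Env M N d) :
    (∀ t ∈ M, cj t (XX M N) = XX M N) ∨ (∀ t ∈ M, cj t (XX M N) = XX M N → t ∈ N) := by
  by_cases hex : ∃ h ∈ M, cj h (XX M N) = XX M N ∧ h ∉ N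
  · left
    obtain ⟨h, hM, hX, hN⟩ := hex
    obtain ⟨fM, s, hf, hfix⟩ := E.S₁.exM
    have hd := E.hd
    intro m hmM
    set c := fM ⟨h, hM⟩ s with hc
    set u := fM ⟨m, hmM⟩ s with hu
    have hcs : c ≠ s := fun e => hN ((hfix ⟨h, hM⟩).mp e)
    by_cases hus : u = s
    · exact E.cjL hmM ((hfix ⟨m, hmM⟩).mp hus)
    -- find an even permutation fixing s and sending c to u
    have hex2 : ∃ τ ∈ alternatingGroup (Fin d), τ s = s ∧ τ c = u := by
      by_cases hcu : c = u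
      · exact ⟨1, Subgroup.one_mem _, rfl, hcu⟩
      · have hcard : 0 < (Finset.univ \ {s, c, u} : Finset (Fin d)).card := by
          have h1 : ({s, c, u} : Finset (Fin d)).card ≤ 3 := Finset.card_le_three
          have h2 := Finset.le_card_sdiff ({s, c, u} : Finset (Fin d)) Finset.univ
          simp only [Finset.card_univ, Fintype.card_fin] at h2
          omega
        obtain ⟨w, hw⟩ := Finset.card_pos.mp hcard
        simp only [Finset.mem_sdiff, Finset.mem_univ, true_and, Finset.mem_insert, Finset.mem_singleton, not_or] at hw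
        refine ⟨swap c u * swap u w, ?_, ?_, ?_⟩
        · rw [Equiv.Perm.mem_alternatingGroup, map_mul, Equiv.Perm.sign_swap hcu, Equiv.Perm.sign_swap (Ne.symm hw.2.2)]
          simp
        · rw [Perm.mul_apply, swap_apply_of_ne_of_ne (Ne.symm hus) (Ne.symm hw.1),
            swap_apply_of_ne_of_ne (Ne.symm hcs) (Ne.symm hus)]
        · rw [Perm.mul_apply, swap_apply_of_ne_of_ne hcu (Ne.symm hw.2.1), swap_apply_left]
    obtain ⟨τ, hτA, hτs, hτc⟩ := hex2
    obtain ⟨v, hv⟩ := hf.alt hτA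
    have hvN : (v : G) ∈ N := (hfix v).mp (by rw [hv]; exact hτs)
    have hvX : cj (v : G) (XX M N) = XX M N := E.cjL v.2 hvN
    -- the element (v h)⁻¹ m fixes s
    have h1 : fM ⟨m, hmM⟩ s = fM (v * ⟨h, hM⟩) s := by
      rw [map_mul, Perm.mul_apply, ← hc, hv, hτc]
    have h2 : fM ((v * ⟨h, hM⟩)⁻¹ * ⟨m, hmM⟩) s = s := by
      rw [map_mul, map_inv, Perm.mul_apply, h1]
      simp
    have h3 := (hfix _).mp h2
    have h4 : (((v * ⟨h, hM⟩)⁻¹ * ⟨m, hmM⟩ : M) : G) ∈ M := Subtype.property _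
    have h5 := E.cjL h4 h3
    have h6 : m = (v : G) * h * (((v * ⟨h, hM⟩)⁻¹ * ⟨m, hmM⟩ : M) : G) := by
      simp [mul_assoc]
    rw [h6, cj_mul, cj_mul, h5, hX, hvX]
  · right
    push_neg at hex
    exact hex

theorem Env.apE (E : Env M N d) (hβ : ∀ t ∈ M, cj t (XX M N) = XX M N → t ∈ N) {t : G} (ht : t ∈ M) (htN : t ∉ N) :
    AP (XX M N) (XX M N ⊓ cj t (XX M N)) (d - 1) := by
  refine (E.apXt ht).restrict E.h5 XX_le_K E.K_le_normX ?_
  intro hle
  exact htN (hβ t ht (E.apX.eq_of_le (E.apXt ht) E.h5 hle).symm)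

theorem Env.iInf_le (E : Env M N d) : (⨅ t : ↥M, (XX M N ⊓ cj (t : G) (XX M N))) ≤ A2 M N := by
  intro x hx
  rw [Subgroup.mem_iInf] at hx
  have h1 : x ∈ XX M N := (hx 1).1
  rw [mem_cor]
  refine ⟨XX_le_M h1, fun t ht => ?_⟩
  have h2 : x ∈ cj t⁻¹ (XX M N) := (hx ⟨t⁻¹, M.inv_mem ht⟩).2
  rw [mem_cj] at h2
  simpa using h2

theorem Env.X_le_normE (E : Env M N d) {t : G} (ht : t ∈ M) :
    XX M N ≤ Subgroup.normalizer ((XX M N ⊓ cj t (XX M N) : Subgroup G) : Set G) :=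
  le_norm_inf Subgroup.le_normalizer (E.X_le_norm ht)

/-- The N-side statements in terms of `XX M N`. -/
theorem Env.apK'X (E : Env M N d) : AP (A1 N M) (XX M N) (d - 1) := by
  have := E.symm.apX
  rwa [XX_comm] at this

theorem Env.apK'Xt (E : Env M N d) {t : G} (ht : t ∈ N) : AP (A1 N M) (cj t (XX M N)) (d - 1) := by
  have := E.symm.apXt ht
  rwa [XX_comm] at this

theorem Env.apZ (E : Env M N d) (hβ : ∀ t ∈ N, cj t (XX M N) = XX M N → t ∈ M) {t : G} (ht : t ∈ N) (htN : t ∉ M) :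
    AP (XX M N) (XX M N ⊓ cj t (XX M N)) (d - 1) := by
  have := E.symm.apE (by rwa [XX_comm]) ht htN
  rwa [XX_comm] at this

/-- Both "beta": contradiction. -/
theorem Env.bb (E : Env M N d) (hβ : ∀ t ∈ M, cj t (XX M N) = XX M N → t ∈ N)
    (hβ' : ∀ t ∈ N, cj t (XX M N) = XX M N → t ∈ M) (hs : Group.IsSolvable (A2 M N)) : False := by
  have hn := E.h5
  set X := XX M N with hXdef
  obtain ⟨k, hkK, hkK'⟩ := Set.not_subset.mp E.nle
  have hkN : k ∈ N := (A1_le_inf M N hkK).2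
  have hkM : k ∈ M := (A1_le_inf M N hkK).1
  have hex : ∃ h' ∈ N, h'⁻¹ * k * h' ∉ M := by
    by_contra hcon
    push_neg at hcon
    apply hkK'
    show k ∈ A1 N M
    rw [mem_cor]
    refine ⟨hkN, fun t ht => ⟨N.mul_mem (N.mul_mem ht hkN) (N.inv_mem ht), ?_⟩⟩
    have := hcon t⁻¹ (N.inv_mem ht)
    simpa using this
  obtain ⟨h', hh'N, hh'⟩ := hex
  have hh'M : h' ∉ M := fun h => hh' (M.mul_mem (M.mul_mem (M.inv_mem h) hkM) h)
  have hkh'N : k * h' ∈ N := N.mul_mem hkN hh'N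
  have hkh'M : k * h' ∉ M := fun h => hh'M (by
    have := M.mul_mem (M.inv_mem hkM) h
    simpa using this)
  have hZ₁ : AP X (X ⊓ cj h' X) (d - 1) := E.apZ hβ' hh'N hh'M
  have hA2 : A2 M N ≤ X ⊓ cj h' X :=
    hZ₁.le_of_solvable hn (cor_le_right _ _) (XX_le_M.trans (M_norm_A2 M N)) hs
  obtain ⟨t, ht⟩ := hZ₁.prime_iInf hn (fun t : ↥M => X ⊓ cj (t : G) X) (fun _ => inf_le_left)
    (fun t => E.X_le_normE t.2) ⟨1⟩ (E.iInf_le.trans hA2)
  have htN : (t : G) ∉ N := by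
    intro htN
    have h1 : cj (t : G) X = X := E.cjL t.2 htN
    rw [h1, inf_idem] at ht
    have h2 : X ≤ cj h' X := ht.trans inf_le_right
    exact hh'M (hβ' h' hh'N (E.apK'X.eq_of_le (E.apK'Xt hh'N) hn h2).symm)
  have hE : AP X (X ⊓ cj (t : G) X) (d - 1) := E.apE hβ t.2 htN
  have heq := hE.eq_of_le hZ₁ hn ht
  have hkX : cj k X = X := E.cjL hkM hkN
  have hkt : cj k (cj (t : G) X) = cj (t : G) X := cj_eq_of_norm (E.K_le_norm t.2 hkK)
  have h1 : cj k (X ⊓ cj h' X) = X ⊓ cj (k * h') X := by rw [cj_inf, hkX, cj_mul]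
  have h2 : cj k (X ⊓ cj (t : G) X) = X ⊓ cj (t : G) X := by rw [cj_inf, hkX, hkt]
  have h3 : X ⊓ cj (k * h') X = X ⊓ cj h' X := by rw [← h1, ← heq, h2]
  have hQ := E.apK'Xt hkh'N
  refine hQ.prime hn XX_le_K' (E.apK'Xt hh'N).le (E.apK'X.norm) (E.apK'Xt hh'N).norm ?_ ?_ ?_
  · intro hle
    exact hkh'M (hβ' _ hkh'N (E.apK'X.eq_of_le hQ hn hle).symm)
  · intro hle
    have h4 : cj h' X = cj (k * h') X := (E.apK'Xt hh'N).eq_of_le hQ hn hle
    have h5 : cj (h'⁻¹ * (k * h')) X = X := by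
      rw [cj_mul, ← h4, cj_inv_cj]
    have h6 := hβ' _ (N.mul_mem (N.inv_mem hh'N) hkh'N) h5
    exact hh' (by simpa [mul_assoc] using h6)
  · rw [← h3]
    exact inf_le_right

theorem N_not_le_M (P : Pair M N) : ∃ t ∈ N, t ∉ M := by
  by_contra hcon
  push_neg at hcon
  have hle : N ≤ M := fun t ht => hcon t ht
  have hlt : N < M := lt_of_le_of_ne hle P.ne.symm
  exact P.coM.1 (P.coN.2 _ hlt)

theorem Env.ab (E : Env M N d) (hα : ∀ t ∈ M, cj t (XX M N) = XX M N)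
    (hβ' : ∀ t ∈ N, cj t (XX M N) = XX M N → t ∈ M) (hs : Group.IsSolvable (A2 M N)) : False := by
  have hle : XX M N ≤ A2 M N := by
    intro x hx
    rw [mem_cor]
    refine ⟨XX_le_M hx, fun t ht => ?_⟩
    have := conj_mem_cj (h := t) hx
    rwa [hα t ht] at this
  have hs2 : Group.IsSolvable (XX M N) := Group.isSolvable_of_isSolvable_injective (Subgroup.inclusion_injective hle)
  obtain ⟨t, htN, htM⟩ := N_not_le_M E.P
  exact (E.apZ hβ' htN htM).not_solvable E.h5 hs2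

theorem fact_eq {d : ℕ} (hd : 1 ≤ d) : d.factorial = d * (d - 1).factorial := by
  obtain ⟨e, rfl⟩ : ∃ e, d = e + 1 := ⟨d - 1, by omega⟩
  simp [Nat.factorial_succ]

theorem Env.not_le_of_big (E : Env M N d) (hβ : ∀ t ∈ M, cj t (XX M N) = XX M N → t ∈ N) {Q : Subgroup G}
    (hQ : AP (XX M N) Q d) (t : G) (ht : t ∈ M) : ¬ XX M N ⊓ cj t (XX M N) ≤ Q := by
  intro hle
  have hd := E.hd
  have h1 := hQ.two_mul_relIndex_ge (by omega)
  have hfact := fact_eq (show 1 ≤ d by omega)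
  have h5d := big_fact (show 5 ≤ d by omega)
  by_cases htN : t ∈ N
  · rw [E.cjL ht htN, inf_idem] at hle
    have h2 : Q.relIndex (XX M N) = 1 := Subgroup.relIndex_eq_one.mpr hle
    rw [h2] at h1
    omega
  · have hE := E.apE hβ ht htN
    have h2 : Q.relIndex (XX M N) ≤ (XX M N ⊓ cj t (XX M N)).relIndex (XX M N) :=
      Subgroup.relIndex_le_of_le_left hle (relIdx_ne _ _)
    have h3 := hE.relIndex_le
    have h4 : d * (d - 1).factorial ≤ 2 * (d - 1).factorial := by omega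
    have h5 := Nat.le_of_mul_le_mul_right h4 (Nat.factorial_pos _)
    omega

/-- `M` is transitive. -/
theorem Env.exists_move (E : Env M N d) {f : M →* Perm (Fin d)} (hf : APw f (A1 M N)) (s c : Fin d) :
    ∃ t : M, f t s = c := by
  have hd := E.hd
  by_cases hc : c = s
  · exact ⟨1, by simp [hc]⟩
  have hcard : 1 < (Finset.univ \ {s, c} : Finset (Fin d)).card := by
    have h1 : ({s, c} : Finset (Fin d)).card ≤ 2 := Finset.card_le_two
    have h2 := Finset.le_card_sdiff ({s, c} : Finset (Fin d)) Finset.univ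
    simp only [Finset.card_univ, Fintype.card_fin] at h2
    omega
  obtain ⟨w, hw, v, hv, hwv⟩ := Finset.one_lt_card.mp hcard
  simp only [Finset.mem_sdiff, Finset.mem_univ, true_and, Finset.mem_insert, Finset.mem_singleton, not_or] at hw hv
  have hmem : swap s c * swap w v ∈ alternatingGroup (Fin d) := by
    rw [Equiv.Perm.mem_alternatingGroup, map_mul, Equiv.Perm.sign_swap (Ne.symm hc), Equiv.Perm.sign_swap hwv]
    simp
  obtain ⟨t, ht⟩ := hf.alt hmem
  refine ⟨t, ?_⟩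
  rw [ht, Perm.mul_apply, swap_apply_of_ne_of_ne (Ne.symm hw.1) (Ne.symm hv.1), swap_apply_left]

/-- "beta" on `M`, "alpha" on `N`, trivial second core: contradiction. -/
theorem Env.ba (E : Env M N d) (hβ : ∀ t ∈ M, cj t (XX M N) = XX M N → t ∈ N)
    (hα' : ∀ t ∈ N, cj t (XX M N) = XX M N) (hA2 : A2 M N = ⊥) : False := by
  have hn := E.h5
  have hd := E.hd
  have hd5 : 5 ≤ d := by omega
  set X := XX M N with hXdef
  obtain ⟨g, hg⟩ := E.P.conj
  have hgN : cj g⁻¹ N = M := by rw [hg, cj_inv_cj]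
  obtain ⟨fM, s, hf, hfix⟩ := E.S₁.exM
  set V := cj g⁻¹ X with hV
  have hcjV : cj g V = X := cj_cj_inv g X
  have hVM : V ≤ M := by rw [← hgN]; exact cj_le_cj XX_le_N
  have hnV : M ≤ Subgroup.normalizer (V : Set G) := by
    have h1 : N ≤ Subgroup.normalizer (X : Set G) := fun t ht => mem_norm_of_cj_eq (hα' t ht)
    have h2 := cj_norm g⁻¹ h1
    rwa [hgN] at h2
  obtain ⟨t₀, ht₀M, ht₀N⟩ := N_not_le_M E.P.symm
  have hX0 : ¬ Group.IsSolvable X := (E.apE hβ ht₀M ht₀N).not_solvable hn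
  have hVne : V ≠ ⊥ := by
    intro h
    apply hX0
    have h1 : X = ⊥ := by
      rw [← hcjV, h]
      exact Subgroup.map_bot _
    rw [h1]
    infer_instance
  have hinf : (⨅ t : ↥M, (X ⊓ cj (t : G) X)) ≤ ⊥ := by
    have := E.iInf_le
    rwa [hA2] at this
  -- Step 1
  have hVK : V ≤ A1 M N := by
    by_contra hVK
    have hapM : AP M (A1 M N) d := ⟨fM, hf⟩
    have h1 : AP V (V ⊓ A1 M N) d := hapM.restrict hd5 hVM hnV hVK
    have h2 := h1.cj g
    rw [cj_inf, hcjV] at h2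
    obtain ⟨t, ht⟩ := h2.prime_iInf hd5 (fun t : ↥M => X ⊓ cj (t : G) X) (fun _ => inf_le_left)
      (fun t => E.X_le_normE t.2) ⟨1⟩ (hinf.trans bot_le)
    exact E.not_le_of_big hβ h2 t t.2 ht
  have hKV : A1 M N ≤ Subgroup.normalizer (V : Set G) := (A1_le_left M N).trans hnV
  -- Step 2
  have hS2 : ∀ t ∈ M, ¬ V ≤ cj t X := by
    intro t ht hle
    apply hVne
    rw [eq_bot_iff, ← hA2]
    intro x hx
    rw [mem_cor]
    refine ⟨hVM hx, fun u hu => ?_⟩
    have h3 : (t * u) * x * (t * u)⁻¹ ∈ V := conj_mem_of_norm (hnV (M.mul_mem ht hu)) hx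
    have h4 := hle h3
    rw [mem_cj] at h4
    convert h4 using 1
    group
  -- Step 3
  have hS3 : ∀ t ∈ M, AP V (V ⊓ cj t X) (d - 1) :=
    fun t ht => (E.apXt ht).restrict hn hVK hKV (hS2 t ht)
  -- Step 4
  have hS4 : ∀ t₁ ∈ M, ∀ t₂ ∈ M, V ⊓ cj t₁ X ≤ cj t₂ X → t₂⁻¹ * t₁ ∈ N := by
    intro t₁ ht₁ t₂ ht₂ hle
    have hnot : cj t₁ X ≤ cj t₂ X := by
      by_contra hcon
      exact (E.apXt ht₂).prime hn hVK (E.apXt ht₁).le hKV (E.K_le_norm ht₁) (hS2 t₂ ht₂) hcon hle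
    have heq := (E.apXt ht₁).eq_of_le (E.apXt ht₂) hn hnot
    apply hβ _ (M.mul_mem (M.inv_mem ht₂) ht₁)
    rw [cj_mul, heq, cj_inv_cj]
  -- Step 5
  have hS5 : ∀ t ∈ M, ∃ u : ↥M, (u : G) ∉ N ∧ X ⊓ cj (u : G) X = cj g (V ⊓ cj t X) := by
    intro t ht
    have hQ := (hS3 t ht).cj g
    rw [hcjV] at hQ
    obtain ⟨u, hu⟩ := hQ.prime_iInf hn (fun t : ↥M => X ⊓ cj (t : G) X) (fun _ => inf_le_left)
      (fun t => E.X_le_normE t.2) ⟨1⟩ (hinf.trans bot_le)
    have huN : (u : G) ∉ N := by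
      intro huN
      have hu' : X ⊓ cj (u : G) X ≤ cj g (V ⊓ cj t X) := hu
      rw [E.cjL u.2 huN, inf_idem] at hu'
      have h6 := hQ.two_mul_relIndex_ge (by omega)
      rw [Subgroup.relIndex_eq_one.mpr hu'] at h6
      have := big_fact hn
      omega
    exact ⟨u, huN, (E.apE hβ u.2 huN).eq_of_le hQ hn hu⟩
  -- Step 6
  have hmove : ∀ c : Fin d, ∃ t : M, fM t s = c := E.exists_move hf s
  choose τ hτ using hmove
  have hu : ∀ c : Fin d, ∃ u : ↥M, (u : G) ∉ N ∧ X ⊓ cj (u : G) X = cj g (V ⊓ cj (τ c : G) X) :=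
    fun c => hS5 _ (τ c).2
  choose u hu1 hu2 using hu
  have hφ : Function.Injective (fun c : Fin d => fM (u c) s) := by
    intro c c' hcc
    simp only at hcc
    have h1 : fM ((u c)⁻¹ * u c') s = s := by
      rw [map_mul, map_inv, Perm.mul_apply, ← hcc]
      simp
    have h2 := (hfix _).mp h1
    have h3 : (((u c)⁻¹ * u c' : M) : G) ∈ M := Subtype.property _
    have h4 : cj (((u c)⁻¹ * u c' : M) : G) X = X := E.cjL h3 h2
    have h5 : (u c' : G) = (u c : G) * (((u c)⁻¹ * u c' : M) : G) := by simp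
    have h6 : cj (u c' : G) X = cj (u c : G) X := by rw [h5, cj_mul, h4]
    have h7 : cj g (V ⊓ cj (τ c : G) X) = cj g (V ⊓ cj (τ c' : G) X) := by
      rw [← hu2, ← hu2, h6]
    have h8 := cj_inj h7
    have h9 : V ⊓ cj (τ c : G) X ≤ cj (τ c' : G) X := by
      rw [h8]
      exact inf_le_right
    have h10 := hS4 _ (τ c).2 _ (τ c').2 h9
    have h11 : fM ((τ c')⁻¹ * τ c) s = s := (hfix _).mpr h10
    rw [map_mul, map_inv, Perm.mul_apply, hτ, Perm.inv_eq_iff_eq, hτ] at h11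
    exact h11
  obtain ⟨c, hc⟩ := (Finite.injective_iff_surjective.mp hφ) s
  exact hu1 c ((hfix _).mp hc)

/-- The key result of this file. -/
theorem Env.inf_eq_bot (E : Env M N d) : XX M N = ⊥ := by
  have hdich' := E.symm.dich
  rw [XX_comm] at hdich'
  have hαβ : ∀ {M N : Subgroup G}, Env M N d → (∀ t ∈ M, cj t (XX M N) = XX M N) →
      (∀ t ∈ N, cj t (XX M N) = XX M N → t ∈ M) → XX M N = ⊥ := by
    intro M N E hα hβ'
    by_cases h1 : A2 M N = ⊥
    · rw [eq_bot_iff, ← h1]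
      intro x hx
      rw [mem_cor]
      refine ⟨XX_le_M hx, fun t ht => ?_⟩
      have := conj_mem_cj (h := t) hx
      rwa [hα t ht] at this
    by_cases h2 : A2 N M = ⊥
    · exfalso
      have h3 := E.symm.ba (by rwa [XX_comm]) (by rwa [XX_comm]) h2
      exact h3
    obtain ⟨p, hp, hpg, -⟩ := E.P.main h1 h2
    exact (E.ab hα hβ' (solvable_of_isPGroup hp (hpg.to_le le_sup_left))).elim
  rcases E.dich with hα | hβ <;> rcases hdich' with hα' | hβ'
  · exact E.P.bot_of_both XX_le_M XX_le_N (fun t ht => mem_norm_of_cj_eq (hα t ht))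
      (fun t ht => mem_norm_of_cj_eq (hα' t ht))
  · exact hαβ E hα hβ'
  · have h3 := hαβ E.symm (by rwa [XX_comm]) (by rwa [XX_comm])
    rwa [XX_comm] at h3
  · exfalso
    by_cases h1 : A2 M N = ⊥
    · exact E.bb hβ hβ' (by rw [h1]; infer_instance)
    by_cases h2 : A2 N M = ⊥
    · exact E.symm.bb (by rwa [XX_comm]) (by rwa [XX_comm]) (by rw [h2]; infer_instance)
    obtain ⟨p, hp, hpg, -⟩ := E.P.main h1 h2
    exact E.bb hβ hβ' (solvable_of_isPGroup hp (hpg.to_le le_sup_left))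

end Cfsg.Agent.Lib.KnappC
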