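import Mathlib
import Cfsg.Agent.Lib.KnappC

/-!
# Knapp's theorem: the structure of the stabilizer
-/

set_option autoImplicit false
set_option linter.unusedSectionVars false
set_option linter.unusedVariables false

open Cfsg

namespace Cfsg.Agent.Lib.KnappD

open Cfsg.Agent.Lib.ThompsonWielandt Cfsg.Agent.Lib.ThompsonTrans Cfsg.Agent.Lib.KnappA
open Cfsg.Agent.Lib.KnappB Cfsg.Agent.Lib.KnappC
open Equiv

theorem alt_le_cases {n : ℕ} {H : Subgroup (Perm (Fin n))} (hA : alternatingGroup (Fin n) ≤ H) :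
    H = alternatingGroup (Fin n) ∨ H = ⊤ := by
  by_cases h : H ≤ alternatingGroup (Fin n)
  · exact Or.inl (le_antisymm h hA)
  · right
    obtain ⟨x, hx, hxA⟩ := Set.not_subset.mp h
    rw [eq_top_iff]
    intro σ _
    by_cases hσ : σ ∈ alternatingGroup (Fin n)
    · exact hA hσ
    · have h1 : Perm.sign x = -1 := by
        rcases Int.units_eq_one_or (Perm.sign x) with h | h
        · exact absurd ((Perm.mem_alternatingGroup).mpr h) hxA
        · exact h
      have h2 : Perm.sign σ = -1 := by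
        rcases Int.units_eq_one_or (Perm.sign σ) with h | h
        · exact absurd ((Perm.mem_alternatingGroup).mpr h) hσ
        · exact h
      have h3 : σ * x⁻¹ ∈ alternatingGroup (Fin n) := by
        rw [Perm.mem_alternatingGroup, map_mul, map_inv, h1, h2]
        decide
      have := H.mul_mem (hA h3) hx
      simpa using this

theorem two_mul_card_alt {n : ℕ} (hn : 2 ≤ n) :
    2 * Nat.card (alternatingGroup (Fin n)) = n.factorial := by
  haveI : Nontrivial (Fin n) := Fin.nontrivial_iff_two_le.mpr hn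
  have h2 := two_mul_nat_card_alternatingGroup (α := Fin n)
  rw [Nat.card_perm] at h2
  simpa using h2

theorem index_of_transitive {T : Type*} [Group T] {d : ℕ} (f : T →* Perm (Fin d)) (s : Fin d)
    (P : Subgroup T) (hP : ∀ x, x ∈ P ↔ f x s = s) (htr : ∀ c, ∃ t, f t s = c) : P.index = d := by
  letI : MulAction T (Fin d) := MulAction.compHom (Fin d) f
  have h1 : P = MulAction.stabilizer T s := by
    ext x
    rw [hP]
    rfl
  rw [h1, MulAction.index_stabilizer]
  have h2 : MulAction.orbit T s = Set.univ := by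
    ext c
    simp only [Set.mem_univ, iff_true]
    obtain ⟨t, ht⟩ := htr c
    exact ⟨t, ht⟩
  rw [h2, Set.ncard_univ, Nat.card_fin]

theorem card_of_inj {A B : Type*} [Group A] [Group B] {f : A →* B} (h : Function.Injective f) :
    Nat.card A = Nat.card f.range := Nat.card_congr (MonoidHom.ofInjective h).toEquiv

variable {G : Type*} [Group G]

theorem card_mul_relIndex {A B : Subgroup G} (h : A ≤ B) : Nat.card A * A.relIndex B = Nat.card B := by
  have h1 := Subgroup.card_mul_index (A.subgroupOf B)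
  have h2 : Nat.card (A.subgroupOf B) = Nat.card A := Nat.card_congr (Subgroup.subgroupOfEquivOfLe h).toEquiv
  rw [h2] at h1
  exact h1

theorem exists_move_perm {d : ℕ} (hd : 4 ≤ d) {H : Subgroup (Perm (Fin d))}
    (hA : alternatingGroup (Fin d) ≤ H) (s c : Fin d) : ∃ σ ∈ H, σ s = c := by
  by_cases hc : c = s
  · exact ⟨1, H.one_mem, by simp [hc]⟩
  have hcard : 1 < (Finset.univ \ {s, c} : Finset (Fin d)).card := by
    have h1 : ({s, c} : Finset (Fin d)).card ≤ 2 := Finset.card_le_two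
    have h2 := Finset.le_card_sdiff ({s, c} : Finset (Fin d)) Finset.univ
    simp only [Finset.card_univ, Fintype.card_fin] at h2
    omega
  obtain ⟨w, hw, v, hv, hwv⟩ := Finset.one_lt_card.mp hcard
  simp only [Finset.mem_sdiff, Finset.mem_univ, true_and, Finset.mem_insert, Finset.mem_singleton, not_or] at hw hv
  have hmem : swap s c * swap w v ∈ alternatingGroup (Fin d) := by
    rw [Equiv.Perm.mem_alternatingGroup, map_mul, Equiv.Perm.sign_swap (Ne.symm hc), Equiv.Perm.sign_swap hwv]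
    simp
  refine ⟨_, hA hmem, ?_⟩
  rw [Perm.mul_apply, swap_apply_of_ne_of_ne (Ne.symm hw.1) (Ne.symm hv.1), swap_apply_left]

theorem direct_iso {M K C : Subgroup G} [Finite M] (hKM : K ≤ M) (hCM : C ≤ M)
    (hcomm : ∀ k ∈ K, ∀ c ∈ C, k * c = c * k) (hinf : K ⊓ C = ⊥)
    (hcard : Nat.card K * Nat.card C = Nat.card M) : Nonempty (M ≃* K × C) := by
  let ψ : K × C →* M := MonoidHom.noncommCoprod (Subgroup.inclusion hKM) (Subgroup.inclusion hCM)
    (fun k c => by
      show Subgroup.inclusion hKM k * Subgroup.inclusion hCM c = Subgroup.inclusion hCM c * Subgroup.inclusion hKM k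
      exact Subtype.ext (hcomm k k.2 c c.2))
  have hinj : Function.Injective ψ := by
    rw [injective_iff_map_eq_one]
    rintro ⟨k, c⟩ h
    have h1 : (k : G) * (c : G) = 1 := congrArg Subtype.val h
    have h2 : (k : G) = (c : G)⁻¹ := eq_inv_of_mul_eq_one_left h1
    have h3 : (k : G) ∈ K ⊓ C := ⟨k.2, by rw [h2]; exact C.inv_mem c.2⟩
    rw [hinf, Subgroup.mem_bot] at h3
    have h4 : (c : G) = 1 := by
      rw [h3] at h1
      simpa using h1
    exact Prod.ext (Subtype.ext h3) (Subtype.ext h4)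
  have hbij : Function.Bijective ψ := hinj.bijective_of_nat_card_le (by
    rw [Nat.card_prod, hcard])
  exact ⟨(MulEquiv.ofBijective ψ hbij).symm⟩

theorem del_point {T : Type*} [Group T] {d : ℕ} (h0 : T →* Perm (Fin d)) (s : Fin d)
    (hs : ∀ x, h0 x s = s) :
    ∃ g : T →* Perm (Fin (d - 1)), (∀ x, g x = 1 ↔ h0 x = 1) ∧
      ∀ τ ∈ alternatingGroup (Fin (d - 1)), ∃ σ ∈ alternatingGroup (Fin d), σ s = s ∧
        ∀ x, h0 x = σ → g x = τ := by
  classical
  have hcard : Fintype.card {y : Fin d // y ≠ s} = d - 1 := by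
    have := Set.card_ne_eq s
    simpa using this
  let e' := Fintype.equivFinOfCardEq hcard
  have hp : ∀ (x : T) (y : Fin d), (h0 x y ≠ s) ↔ y ≠ s := by
    intro x y
    constructor
    · rintro h rfl
      exact h (hs x)
    · intro h he
      apply h
      exact (h0 x).injective (he.trans (hs x).symm)
  let g0 : T →* Perm {y : Fin d // y ≠ s} := MonoidHom.mk' (fun x => (h0 x).subtypePerm (hp x)) (by
    intro a b
    apply Equiv.ext
    intro y
    apply Subtype.ext
    show h0 (a * b) y = h0 a (h0 b y)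
    rw [map_mul]
    rfl)
  refine ⟨(permCongrHom e').toMonoidHom.comp g0, ?_, ?_⟩
  · intro x
    have h1 : ((permCongrHom e').toMonoidHom.comp g0) x = 1 ↔ g0 x = 1 :=
      EmbeddingLike.map_eq_one_iff (f := permCongrHom e')
    rw [h1]
    constructor
    · intro h
      ext y
      by_cases hy : y = s
      · rw [hy, hs]
        rfl
      · have := congrArg (fun p : Perm {y : Fin d // y ≠ s} => ((p ⟨y, hy⟩ : {y : Fin d // y ≠ s}) : Fin d)) h
        simpa [g0] using congrArg Fin.val this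
    · intro h
      ext y
      simp [g0, h]
  · intro τ hτ
    let τ' : Perm {y : Fin d // y ≠ s} := (permCongrHom e').symm τ
    refine ⟨Perm.ofSubtype τ', ?_, ?_, ?_⟩
    · rw [Perm.mem_alternatingGroup, Perm.sign_ofSubtype]
      have h1 : Perm.sign (permCongrHom e' τ') = Perm.sign τ' := Perm.sign_permCongr e' τ'
      have h2 : permCongrHom e' τ' = τ := (permCongrHom e').apply_symm_apply τ
      rw [← h1, h2]
      exact (Perm.mem_alternatingGroup).mp hτ
    · exact Perm.ofSubtype_apply_of_not_mem _ (by simp)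
    · intro x hx
      have h1 : g0 x = τ' := by
        have h2 : g0 x = (h0 x).subtypePerm (hp x) := rfl
        rw [h2]
        subst_vars
        ext y
        have h3 : (Perm.ofSubtype τ') (y : Fin d) = τ' y := Perm.ofSubtype_apply_coe τ' y
        rw [Perm.subtypePerm_apply]
        simp only [hx]
        rw [h3]
      show permCongrHom e' (g0 x) = τ
      rw [h1]
      exact (permCongrHom e').apply_symm_apply τ

variable [Finite G] {M N : Subgroup G} {d : ℕ}

theorem side_of_fM (hd : 4 ≤ d) {f : M →* Perm (Fin d)} {s : Fin d}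
    (hf : APw f (A1 M N)) (hfix : ∀ x : M, f x s = s ↔ (x : G) ∈ N) : Side M N d := by
  refine ⟨⟨f, s, hf, hfix⟩, ?_, ?_⟩
  · obtain ⟨g, hg1, hg2⟩ := del_point (res (inf_le_left : M ⊓ N ≤ M) f) s
      (fun x => (hfix _).mpr x.2.2)
    refine ⟨g, A1_le_inf M N, ?_, ?_⟩
    · intro x
      rw [hg1]
      exact hf.ker _
    · intro τ hτ
      obtain ⟨σ, hσA, hσs, hσ⟩ := hg2 τ hτ
      obtain ⟨y, hy⟩ := hf.alt hσA
      have hyN : (y : G) ∈ N := (hfix y).mp (by rw [hy]; exact hσs)
      exact ⟨⟨y, y.2, hyN⟩, hσ _ hy⟩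
  · refine index_of_transitive f s _ ?_ ?_
    · intro x
      rw [Subgroup.mem_subgroupOf, hfix]
      exact ⟨fun h => h.2, fun h => ⟨x.2, h⟩⟩
    · intro c
      obtain ⟨σ, ⟨t, rfl⟩, hσ⟩ := exists_move_perm hd hf.alt s c
      exact ⟨t, hσ⟩

/-- The index of `M ⊓ N` in `N`. -/
theorem relIndex_N (P : Pair M N) (S : Side M N d) : (M ⊓ N).relIndex N = d := by
  obtain ⟨g, hg⟩ := P.conj
  have hcardMN : Nat.card M = Nat.card N := by
    rw [hg]
    exact (Subgroup.card_map_of_injective (MulAut.conj g).injective).symm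
  have h1 : (M ⊓ N).relIndex M * M.index = (M ⊓ N).index := Subgroup.relIndex_mul_index inf_le_left
  have h2 : (M ⊓ N).relIndex N * N.index = (M ⊓ N).index := Subgroup.relIndex_mul_index inf_le_right
  have h3 : (M ⊓ N).relIndex M = d := S.idx
  have h4 : M.index = N.index := by
    have e1 := Subgroup.card_mul_index M
    have e2 := Subgroup.card_mul_index N
    rw [hcardMN, ← e2] at e1
    exact Nat.eq_of_mul_eq_mul_left Nat.card_pos e1
  rw [h3, ← h2, h4] at h1
  exact (Nat.eq_of_mul_eq_mul_right (Nat.pos_of_ne_zero Subgroup.index_ne_zero_of_finite) h1).symm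

/-- the centralizer of the kernel -/
abbrev CC (M N : Subgroup G) : Subgroup G := M ⊓ Subgroup.centralizer ((A1 M N : Subgroup G) : Set G)

theorem mem_CC {x : G} : x ∈ CC M N ↔ x ∈ M ∧ ∀ k ∈ A1 M N, k * x = x * k := by
  rw [Subgroup.mem_inf, Subgroup.mem_centralizer_iff]
  rfl

theorem norm_CC (M N : Subgroup G) : M ≤ Subgroup.normalizer (CC M N : Set G) := by
  intro t ht
  rw [Subgroup.mem_normalizer_iff]
  intro x
  simp only [SetLike.mem_coe, mem_CC]
  constructor
  · rintro ⟨h1, h2⟩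
    refine ⟨M.mul_mem (M.mul_mem ht h1) (M.inv_mem ht), fun k hk => ?_⟩
    have h3 : t⁻¹ * k * t⁻¹⁻¹ ∈ A1 M N := conj_mem_of_norm (M_le_norm_cor _ _ (M.inv_mem ht)) hk
    rw [inv_inv] at h3
    have h4 := h2 _ h3
    calc k * (t * x * t⁻¹) = t * ((t⁻¹ * k * t) * x) * t⁻¹ := by group
      _ = t * (x * (t⁻¹ * k * t)) * t⁻¹ := by rw [h4]
      _ = t * x * t⁻¹ * k := by group
  · rintro ⟨h1, h2⟩
    refine ⟨?_, fun k hk => ?_⟩
    · have := M.mul_mem (M.mul_mem (M.inv_mem ht) h1) ht
      simpa [mul_assoc] using this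
    · have h3 : t * k * t⁻¹ ∈ A1 M N := conj_mem_of_norm (M_le_norm_cor _ _ ht) hk
      have h4 := h2 _ h3
      have h5 : t * (k * x) * t⁻¹ = t * (x * k) * t⁻¹ := by
        calc t * (k * x) * t⁻¹ = (t * k * t⁻¹) * (t * x * t⁻¹) := by group
          _ = (t * x * t⁻¹) * (t * k * t⁻¹) := h4
          _ = t * (x * k) * t⁻¹ := by group
      simpa using h5

theorem env_comm (E : Env M N d) {k k' : G} (hk : k ∈ A1 M N) (hk' : k' ∈ A1 N M) : k * k' = k' * k := by
  have hb : A1 M N ⊓ A1 N M = ⊥ := E.inf_eq_bot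
  have h1 : k * k' * k⁻¹ * k'⁻¹ ∈ A1 M N ⊓ A1 N M := by
    constructor
    · have h2 : k' * k⁻¹ * k'⁻¹ ∈ A1 M N :=
        conj_mem_of_norm (inf_le_norm_A1 M N (A1_le_inf' M N hk')) ((A1 M N).inv_mem hk)
      have := (A1 M N).mul_mem hk h2
      simpa [mul_assoc] using this
    · have h2 : k * k' * k⁻¹ ∈ A1 N M := conj_mem_of_norm (inf_le_norm_A1' M N (A1_le_inf M N hk)) hk'
      exact (A1 N M).mul_mem h2 ((A1 N M).inv_mem hk')
  rw [hb, Subgroup.mem_bot] at h1
  have h2 : k * k' * k⁻¹ = k' := by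
    have := congrArg (· * k') h1
    simpa using this
  have h3 := congrArg (· * k) h2
  simpa using h3

theorem env_K'_le_CC (E : Env M N d) : A1 N M ≤ CC M N := by
  intro x hx
  rw [mem_CC]
  exact ⟨(A1_le_inf' M N hx).1, fun k hk => env_comm E hk hx⟩

/-- `K' = cj g K`. -/
theorem env_card_K' (E : Env M N d) {fM : M →* Perm (Fin d)} (hf : APw fM (A1 M N)) :
    Nat.card (A1 N M) = Nat.card (A1 M N) := by
  obtain ⟨g, hg⟩ := E.P.conj
  have hb : A1 M N ⊓ A1 N M = ⊥ := E.inf_eq_bot
  have h5 := E.h5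
  have hd := E.hd
  have hd5 : 5 ≤ d := by omega
  have h1 : AP N (cj g (A1 M N)) d := by
    have hap : AP M (A1 M N) d := ⟨fM, hf⟩
    have := hap.cj g
    rwa [← hg] at this
  obtain ⟨fN, s', hfN, hfixN⟩ := E.S₂.exM
  have h2 : AP N (A1 N M) d := ⟨fN, hfN⟩
  obtain ⟨f, hfL⟩ := E.apK
  have hφ := hfL.restrict h5 (A1_le_inf' M N) (inf_le_norm_A1' M N) E.nle'
  have hφinj : Function.Injective (res (A1_le_inf' M N) f) := by
    rw [injective_iff_map_eq_one]
    intro x hx
    have := (hφ.ker x).mp hx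
    rw [inf_comm, hb] at this
    exact Subtype.ext ((Subgroup.mem_bot).mp this)
  have h3 : Nat.card (A1 N M) ≤ (d - 1).factorial := by
    have := Nat.card_le_card_of_injective _ hφinj
    rwa [Nat.card_perm, Nat.card_eq_fintype_card (α := Fin (d - 1)), Fintype.card_fin] at this
  have h4 : A1 N M ≤ cj g (A1 M N) := by
    by_contra hcon
    have h6 := h1.restrict hd5 (A1_le_left N M) (M_le_norm_cor _ _) hcon
    have h7 := h6.two_mul_relIndex_ge (by omega)
    have h8 : (A1 N M ⊓ cj g (A1 M N)).relIndex (A1 N M) ≤ Nat.card (A1 N M) := by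
      have h9 := card_mul_relIndex (inf_le_left : A1 N M ⊓ cj g (A1 M N) ≤ A1 N M)
      have h10 : 0 < Nat.card ↥(A1 N M ⊓ cj g (A1 M N)) := Nat.card_pos
      nlinarith
    have h11 := fact_eq (show 1 ≤ d by omega)
    have h12 := Nat.factorial_pos (d - 1)
    have h13 : d * (d - 1).factorial ≤ 2 * (d - 1).factorial := by omega
    have h14 := Nat.le_of_mul_le_mul_right h13 h12
    omega
  have h15 := h2.eq_of_le h1 hd5 h4
  rw [h15]
  exact Subgroup.card_map_of_injective (MulAut.conj g).injective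

theorem exists_ext {L C : Subgroup G} {T : Type*} [Group T] (hLM : L ≤ M) (hCM : C ≤ M)
    (hnC : M ≤ Subgroup.normalizer (C : Set G)) (f' : L →* T)
    (hLC : ∀ x : M, ∃ (l : L) (c : C), (x : G) = l * c)
    (hker : ∀ y : L, (y : G) ∈ C → f' y = 1) :
    ∃ θ : M →* T, ∀ (l : L) (c : C) (x : M), (x : G) = l * c → θ x = f' l := by
  classical
  choose lf cf hx using hLC
  have key : ∀ (x : M) (l : L) (c : C), (x : G) = l * c → f' (lf x) = f' l := by
    intro x l c hxe
    have h1 : ((lf x)⁻¹ * l : L) = (((lf x)⁻¹ : L) : G) * l := rfl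
    have h2 : (((lf x)⁻¹ * l : L) : G) ∈ C := by
      have h3 : ((lf x : G)) * (cf x : G) = l * c := by rw [← hx x, hxe]
      have h4 : (lf x : G)⁻¹ * (l : G) = (cf x : G) * (c : G)⁻¹ := by
        calc (lf x : G)⁻¹ * (l : G) = (lf x : G)⁻¹ * ((l : G) * c) * (c : G)⁻¹ := by group
          _ = (lf x : G)⁻¹ * ((lf x : G) * (cf x : G)) * (c : G)⁻¹ := by rw [h3]
          _ = (cf x : G) * (c : G)⁻¹ := by group
      have h5 : (((lf x)⁻¹ * l : L) : G) = (lf x : G)⁻¹ * (l : G) := by simp
      rw [h5, h4]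
      exact C.mul_mem (cf x).2 (C.inv_mem c.2)
    have h3 := hker _ h2
    rw [map_mul, map_inv] at h3
    have h4 := congrArg (f' (lf x) * ·) h3
    simpa using h4.symm
  let θ : M →* T := MonoidHom.mk' (fun x => f' (lf x)) (by
    intro x y
    have h1 : ((lf y : G))⁻¹ * (cf x : G) * (lf y : G) ∈ C := by
      have h2 := conj_mem_of_norm (hnC (M.inv_mem (hLM (lf y).2))) (cf x).2
      simpa using h2
    have h2 : ((x * y : M) : G) = ((lf x * lf y : L) : G) * ((⟨_, h1⟩ * cf y : C) : G) := by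
      show (x : G) * (y : G) = (lf x : G) * (lf y : G) * (((lf y : G))⁻¹ * (cf x : G) * (lf y : G) * (cf y : G))
      rw [hx x]
      nth_rw 1 [hx y]
      group
    show f' (lf (x * y)) = f' (lf x) * f' (lf y)
    rw [key _ _ _ h2, map_mul])
  exact ⟨θ, fun l c x hxe => key x l c hxe⟩

/-- The third possibility of the theorem. -/
theorem env_third (E : Env M N d) {fM : M →* Perm (Fin d)} {s : Fin d} (hf : APw fM (A1 M N))
    (hfix : ∀ x : M, fM x s = s ↔ (x : G) ∈ N) (hMT : fM.range = ⊤)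
    {f' : ↥(M ⊓ N) →* Perm (Fin (d - 1))} (hf' : APw f' (A1 N M))
    (hCA : (res (inf_le_left : CC M N ≤ M) fM).range = alternatingGroup (Fin d))
    (hφ : alternatingGroup (Fin (d - 1)) ≤ (res (A1_le_inf M N) f').range)
    (hCN : ∀ x ∈ CC M N, x ∈ N → x ∈ A1 N M) (hCK : A1 M N ⊓ CC M N = ⊥)
    (hkv : 2 * Nat.card (A1 M N) = (d - 1).factorial) :
    Nonempty (M ≃* ((Perm.sign.comp (MonoidHom.fst (Perm (Fin d)) (Perm (Fin (d - 1))))) *
         (Perm.sign.comp (MonoidHom.snd (Perm (Fin d)) (Perm (Fin (d - 1)))))).ker) := by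
  have hd := E.hd
  have hCM : CC M N ≤ M := inf_le_left
  set C := CC M N with hC
  have hLM : M ⊓ N ≤ M := inf_le_left
  have hnC : M ≤ Subgroup.normalizer (C : Set G) := norm_CC M N
  -- M = L C
  have hLC : ∀ x : M, ∃ (l : ↥(M ⊓ N)) (c : C), (x : G) = l * c := by
    intro x
    obtain ⟨σ, hσ, hσs⟩ := exists_move_perm (show 4 ≤ d by omega)
      (H := (res hCM fM).range) (by rw [hCA]) s (fM x⁻¹ s)
    obtain ⟨c₀, rfl⟩ := hσ
    have h1 : fM (x * Subgroup.inclusion hCM c₀) s = s := by
      rw [map_mul, Perm.mul_apply]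
      have h2 : fM (Subgroup.inclusion hCM c₀) s = fM x⁻¹ s := hσs
      rw [h2, map_inv]
      simp
    have h2 := (hfix _).mp h1
    refine ⟨⟨_, (x * Subgroup.inclusion hCM c₀).2, h2⟩, c₀⁻¹, ?_⟩
    simp
  have hker : ∀ y : ↥(M ⊓ N), (y : G) ∈ C → f' y = 1 :=
    fun y hy => (hf'.ker y).mpr (hCN _ hy y.2.2)
  obtain ⟨θ, hθ⟩ := exists_ext hLM hCM hnC f' hLC hker
  -- signs on C
  have hCsign : ∀ c : C, Perm.sign (fM (Subgroup.inclusion hCM c)) = 1 := by
    intro c
    have : fM (Subgroup.inclusion hCM c) ∈ (res hCM fM).range := ⟨c, rfl⟩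
    rw [hCA] at this
    exact (Perm.mem_alternatingGroup).mp this
  -- the key implication
  have hkey : ∀ l : ↥(M ⊓ N), Perm.sign (f' l) = 1 → Perm.sign (fM (Subgroup.inclusion hLM l)) = 1 := by
    intro l hl
    obtain ⟨k, hk⟩ := hφ ((Perm.mem_alternatingGroup).mpr hl)
    have h1 : f' (l * (Subgroup.inclusion (A1_le_inf M N) k)⁻¹) = 1 := by
      rw [map_mul, map_inv]
      have h2 : f' (Subgroup.inclusion (A1_le_inf M N) k) = f' l := hk
      rw [h2]
      simp
    have h2 := (hf'.ker _).mp h1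
    have hk'C : ((l * (Subgroup.inclusion (A1_le_inf M N) k)⁻¹ : ↥(M ⊓ N)) : G) ∈ C := env_K'_le_CC E h2
    have h3 : Subgroup.inclusion hLM l =
        Subgroup.inclusion hCM ⟨_, hk'C⟩ * Subgroup.inclusion (A1_le_left M N) k := by
      apply Subtype.ext
      simp
    rw [h3, map_mul, map_mul, hCsign]
    have h4 : fM (Subgroup.inclusion (A1_le_left M N) k) = 1 := (hf.ker _).mpr k.2
    rw [h4]
    simp
  -- an odd element
  have hodd : ∃ l₀ : ↥(M ⊓ N), Perm.sign (fM (Subgroup.inclusion hLM l₀)) = -1 := by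
    have hcard : 1 < (Finset.univ \ {s} : Finset (Fin d)).card := by
      have h1 : ({s} : Finset (Fin d)).card = 1 := Finset.card_singleton s
      have h2 := Finset.le_card_sdiff ({s} : Finset (Fin d)) Finset.univ
      simp only [Finset.card_univ, Fintype.card_fin] at h2
      omega
    obtain ⟨u, hu, v, hv, huv⟩ := Finset.one_lt_card.mp hcard
    simp only [Finset.mem_sdiff, Finset.mem_univ, true_and, Finset.mem_singleton] at hu hv
    have hmem : swap u v ∈ fM.range := by
      rw [hMT]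
      trivial
    obtain ⟨x, hx⟩ := hmem
    have hxN : (x : G) ∈ N := (hfix x).mp (by
      rw [hx]
      exact swap_apply_of_ne_of_ne (Ne.symm hu) (Ne.symm hv))
    refine ⟨⟨x, x.2, hxN⟩, ?_⟩
    have h1 : Subgroup.inclusion hLM ⟨x, x.2, hxN⟩ = x := rfl
    rw [h1, hx, Perm.sign_swap huv]
  obtain ⟨l₀, hl₀⟩ := hodd
  have hl₀' : Perm.sign (f' l₀) = -1 := by
    rcases Int.units_eq_one_or (Perm.sign (f' l₀)) with h | h
    · have := hkey l₀ h
      rw [hl₀] at this
      exact absurd this (by decide)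
    · exact h
  have hsign : ∀ l : ↥(M ⊓ N), Perm.sign (fM (Subgroup.inclusion hLM l)) = Perm.sign (f' l) := by
    intro l
    rcases Int.units_eq_one_or (Perm.sign (f' l)) with h | h
    · rw [h]
      exact hkey l h
    · rw [h]
      have h1 : Perm.sign (f' (l * l₀)) = 1 := by
        rw [map_mul, map_mul, h, hl₀']
        decide
      have h2 := hkey _ h1
      rw [map_mul, map_mul, map_mul, hl₀] at h2
      rcases Int.units_eq_one_or (Perm.sign (fM (Subgroup.inclusion hLM l))) with h3 | h3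
      · rw [h3] at h2
        exact absurd h2 (by decide)
      · exact h3
  have hsign' : ∀ x : M, Perm.sign (fM x) = Perm.sign (θ x) := by
    intro x
    obtain ⟨l, c, hx⟩ := hLC x
    have h1 : x = Subgroup.inclusion hLM l * Subgroup.inclusion hCM c := Subtype.ext hx
    rw [hθ l c x hx]
    nth_rw 1 [h1]
    rw [map_mul, map_mul, hCsign, hsign, mul_one]
  -- the map
  let χ : Perm (Fin d) × Perm (Fin (d - 1)) →* ℤˣ :=
    (Perm.sign.comp (MonoidHom.fst (Perm (Fin d)) (Perm (Fin (d - 1))))) *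
         (Perm.sign.comp (MonoidHom.snd (Perm (Fin d)) (Perm (Fin (d - 1)))))
  have hΦmem : ∀ x : M, (fM.prod θ) x ∈ χ.ker := by
    intro x
    rw [MonoidHom.mem_ker]
    show Perm.sign (fM x) * Perm.sign (θ x) = 1
    rw [hsign']
    exact Int.units_mul_self _
  let Φ : M →* χ.ker := (fM.prod θ).codRestrict χ.ker hΦmem
  have hΦinj : Function.Injective Φ := by
    rw [injective_iff_map_eq_one]
    intro x hx
    have h1 : fM x = 1 := congrArg (fun y : χ.ker => (y : Perm (Fin d) × Perm (Fin (d - 1))).1) hx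
    have h2 : θ x = 1 := congrArg (fun y : χ.ker => (y : Perm (Fin d) × Perm (Fin (d - 1))).2) hx
    have hxK : (x : G) ∈ A1 M N := (hf.ker x).mp h1
    obtain ⟨l, c, hxe⟩ := hLC x
    rw [hθ l c x hxe] at h2
    have hlC : (l : G) ∈ C := env_K'_le_CC E ((hf'.ker l).mp h2)
    have hxC : (x : G) ∈ C := by
      rw [hxe]
      exact C.mul_mem hlC c.2
    have h3 : (x : G) ∈ A1 M N ⊓ C := ⟨hxK, hxC⟩
    rw [hCK, Subgroup.mem_bot] at h3
    exact Subtype.ext h3
  have hχsurj : Function.Surjective χ := by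
    intro u
    rcases Int.units_eq_one_or u with rfl | rfl
    · exact ⟨1, map_one _⟩
    · have h01 : (⟨0, by omega⟩ : Fin d) ≠ ⟨1, by omega⟩ := by simp
      refine ⟨(swap ⟨0, by omega⟩ ⟨1, by omega⟩, 1), ?_⟩
      show Perm.sign (swap (⟨0, by omega⟩ : Fin d) ⟨1, by omega⟩) * Perm.sign (1 : Perm (Fin (d - 1))) = -1
      rw [Perm.sign_swap h01]
      simp
  have hQcard : Nat.card χ.ker * 2 = d.factorial * (d - 1).factorial := by
    have h1 := Subgroup.card_mul_index χ.ker
    rw [Subgroup.index_ker, MonoidHom.range_eq_top.mpr hχsurj, Nat.card_prod, Nat.card_perm, Nat.card_perm,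
      Subgroup.card_top] at h1
    have h2 : Nat.card ℤˣ = 2 := by
      rw [Nat.card_eq_fintype_card]
      rfl
    rw [h2] at h1
    simpa using h1
  have hMcard : Nat.card M = Nat.card (A1 M N) * d.factorial := by
    have h1 := card_mul_relIndex hf.le
    rw [hf.relIndex_eq, hMT, Subgroup.card_top, Nat.card_perm] at h1
    simpa using h1.symm
  have hbij : Function.Bijective Φ := hΦinj.bijective_of_nat_card_le (by
    have h1 : 2 * Nat.card M = (d - 1).factorial * d.factorial := by
      rw [hMcard, ← mul_assoc, hkv]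
    have h2 : 2 * Nat.card χ.ker = (d - 1).factorial * d.factorial := by
      rw [mul_comm (d - 1).factorial, ← hQcard, mul_comm]
    omega)
  exact ⟨MulEquiv.ofBijective Φ hbij⟩

/-- The structure theorem. -/
theorem env_final (E : Env M N d) {fM : M →* Perm (Fin d)} {s : Fin d} (hf : APw fM (A1 M N))
    (hfix : ∀ x : M, fM x s = s ↔ (x : G) ∈ N) :
    (fM.range = alternatingGroup (Fin d) ∧
      Nonempty (M ≃* alternatingGroup (Fin d) × alternatingGroup (Fin (d - 1)))) ∨
    (fM.range = ⊤ ∧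
      (Nonempty (M ≃* Perm (Fin d) × Perm (Fin (d - 1))) ∨
       Nonempty (M ≃* Perm (Fin d) × alternatingGroup (Fin (d - 1))) ∨
       Nonempty (M ≃* ((Perm.sign.comp (MonoidHom.fst (Perm (Fin d)) (Perm (Fin (d - 1))))) *
         (Perm.sign.comp (MonoidHom.snd (Perm (Fin d)) (Perm (Fin (d - 1)))))).ker))) := by
  have hb : A1 M N ⊓ A1 N M = ⊥ := E.inf_eq_bot
  have h5 := E.h5
  have hd := E.hd
  have hd5 : 5 ≤ d := by omega
  obtain ⟨f', hf'⟩ := E.apK'
  have hKL : A1 M N ≤ M ⊓ N := A1_le_inf M N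
  have hφ' := hf'.restrict h5 hKL (inf_le_norm_A1 M N) E.nle
  have hφ'inj : Function.Injective (res hKL f') := by
    rw [injective_iff_map_eq_one]
    intro x hx
    have := (hφ'.ker x).mp hx
    rw [hb] at this
    exact Subtype.ext ((Subgroup.mem_bot).mp this)
  have hCM : CC M N ≤ M := inf_le_left
  have hnC : M ≤ Subgroup.normalizer (CC M N : Set G) := norm_CC M N
  have hK'C : A1 N M ≤ CC M N := env_K'_le_CC E
  have hCN : ∀ x ∈ CC M N, x ∈ N → x ∈ A1 N M := by
    intro x hxC hxN
    have hxL : x ∈ M ⊓ N := ⟨hCM hxC, hxN⟩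
    refine (hf'.ker ⟨x, hxL⟩).mp ?_
    refine perm_eq_one_of_commute_alt h5 _ ?_
    intro a ha
    obtain ⟨k, hk⟩ := hφ'.alt ha
    rw [← hk]
    simp only [MonoidHom.comp_apply]
    rw [← map_mul, ← map_mul]
    congr 1
    apply Subtype.ext
    exact ((mem_CC.mp hxC).2 k k.2).symm
  have hCK : A1 M N ⊓ CC M N = ⊥ := by
    rw [eq_bot_iff]
    intro x hx
    have h1 : x ∈ A1 M N ⊓ A1 N M := ⟨hx.1, hCN x hx.2 (hKL hx.1).2⟩
    rwa [hb] at h1
  have hCnotK : ¬ CC M N ≤ A1 M N := fun h => E.nle' (hK'C.trans h)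
  have hψ := hf.restrict hd5 hCM hnC hCnotK
  have hψinj : Function.Injective (res hCM fM) := by
    rw [injective_iff_map_eq_one]
    intro x hx
    have h1 := (hψ.ker x).mp hx
    have h2 : (x : G) ∈ A1 M N ⊓ CC M N := ⟨h1.2, h1.1⟩
    rw [hCK] at h2
    exact Subtype.ext ((Subgroup.mem_bot).mp h2)
  have hk : Nat.card (A1 N M) = Nat.card (A1 M N) := env_card_K' E hf
  have hMcard : Nat.card M = Nat.card (A1 M N) * Nat.card fM.range := by
    have h1 := card_mul_relIndex hf.le
    rw [hf.relIndex_eq] at h1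
    exact h1.symm
  have hCcard : Nat.card (CC M N) = Nat.card (res hCM fM).range := card_of_inj hψinj
  have hKcard : Nat.card (A1 M N) = Nat.card (res hKL f').range := card_of_inj hφ'inj
  have hcomm : ∀ k ∈ A1 M N, ∀ c ∈ CC M N, k * c = c * k := fun k hk c hc => (mem_CC.mp hc).2 k hk
  have hAd := two_mul_card_alt (show 2 ≤ d by omega)
  have hAd1 := two_mul_card_alt (show 2 ≤ d - 1 by omega)
  rcases alt_le_cases hψ.alt with hCA | hCT
  · -- C1
    have hCcard2 : 2 * Nat.card (CC M N) = d.factorial := by rw [hCcard, hCA, hAd]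
    have hidx : (CC M N ⊓ N).relIndex (CC M N) = d := by
      refine index_of_transitive (res hCM fM) s _ ?_ ?_
      · intro x
        rw [Subgroup.mem_subgroupOf]
        show _ ↔ fM (Subgroup.inclusion hCM x) s = s
        rw [hfix]
        exact ⟨fun h => h.2, fun h => ⟨x.2, h⟩⟩
      · intro c
        obtain ⟨σ, ⟨t, rfl⟩, hσ⟩ := exists_move_perm (show 4 ≤ d by omega) hψ.alt s c
        exact ⟨t, hσ⟩
    have h1 := card_mul_relIndex (inf_le_left : CC M N ⊓ N ≤ CC M N)
    rw [hidx] at h1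
    have hK'le : A1 N M ≤ CC M N ⊓ N := le_inf hK'C (A1_le_left N M)
    have h2 : Nat.card (A1 N M) ≤ Nat.card ↥(CC M N ⊓ N) := Subgroup.card_le_of_le hK'le
    have h3 := fact_eq (show 1 ≤ d by omega)
    have h4 : 2 * Nat.card ↥(CC M N ⊓ N) = (d - 1).factorial := by
      have h6 : (2 * Nat.card ↥(CC M N ⊓ N)) * d = (d - 1).factorial * d := by
        rw [mul_comm (d - 1).factorial, ← h3, ← hCcard2, ← h1]
        ring
      exact Nat.eq_of_mul_eq_mul_right (by omega) h6
    have h7 : (d - 1).factorial ≤ 2 * Nat.card (A1 M N) := by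
      rw [hKcard, ← hAd1]
      have := Subgroup.card_le_of_le hφ'.alt
      omega
    have hkv : 2 * Nat.card (A1 M N) = (d - 1).factorial := by omega
    have hKA : (res hKL f').range = alternatingGroup (Fin (d - 1)) := by
      rcases alt_le_cases hφ'.alt with h | h
      · exact h
      · exfalso
        rw [h, Subgroup.card_top, Nat.card_perm] at hKcard
        simp only [Nat.card_eq_fintype_card, Fintype.card_fin] at hKcard
        have := Nat.factorial_pos (d - 1)
        omega
    have eK : A1 M N ≃* alternatingGroup (Fin (d - 1)) :=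
      (MonoidHom.ofInjective hφ'inj).trans (MulEquiv.subgroupCongr hKA)
    have eC : CC M N ≃* alternatingGroup (Fin d) :=
      (MonoidHom.ofInjective hψinj).trans (MulEquiv.subgroupCongr hCA)
    rcases alt_le_cases hf.alt with hMA | hMT
    · left
      refine ⟨hMA, ?_⟩
      have h8 : Nat.card (A1 M N) * Nat.card (CC M N) = Nat.card M := by
        rw [hMcard, hMA, hCcard, hCA]
      obtain ⟨e⟩ := direct_iso (A1_le_left M N) hCM hcomm hCK h8
      exact ⟨e.trans ((MulEquiv.prodCongr eK eC).trans MulEquiv.prodComm)⟩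
    · right
      refine ⟨hMT, Or.inr (Or.inr ?_)⟩
      exact env_third E hf hfix hMT hf' hCA hφ'.alt hCN hCK hkv
  · -- C2
    have hψsurj : Function.Surjective (res hCM fM) := MonoidHom.range_eq_top.mp hCT
    have hMT : fM.range = ⊤ := by
      rw [eq_top_iff]
      intro σ _
      obtain ⟨c, hc⟩ := hψsurj σ
      exact ⟨_, hc⟩
    have h8 : Nat.card (A1 M N) * Nat.card (CC M N) = Nat.card M := by
      rw [hMcard, hMT, hCcard, hCT]
    obtain ⟨e⟩ := direct_iso (A1_le_left M N) hCM hcomm hCK h8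
    have eC : CC M N ≃* Perm (Fin d) := MulEquiv.ofBijective (res hCM fM) ⟨hψinj, hψsurj⟩
    right
    refine ⟨hMT, ?_⟩
    rcases alt_le_cases hφ'.alt with h | h
    · right
      left
      have eK : A1 M N ≃* alternatingGroup (Fin (d - 1)) :=
        (MonoidHom.ofInjective hφ'inj).trans (MulEquiv.subgroupCongr h)
      exact ⟨e.trans ((MulEquiv.prodCongr eK eC).trans MulEquiv.prodComm)⟩
    · left
      have eK : A1 M N ≃* Perm (Fin (d - 1)) :=
        MulEquiv.ofBijective (res hKL f') ⟨hφ'inj, MonoidHom.range_eq_top.mp h⟩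
      exact ⟨e.trans ((MulEquiv.prodCongr eK eC).trans MulEquiv.prodComm)⟩

section Action

open MulAction Cfsg.Agent.Lib.ThompsonWielandtPerm

variable {Ω : Type*} [MulAction G Ω]

theorem orbit_hom [FaithfulSMul G Ω] [Finite Ω] (a b : Ω) {d : ℕ} (hd : Nat.card (orbit (stabilizer G a) b) = d) :
    ∃ (f : stabilizer G a →* Perm (Fin d)) (s : Fin d),
      (∀ x, f x = 1 ↔ (x : G) ∈ A1 (stabilizer G a) (stabilizer G b)) ∧
      (∀ x, f x s = s ↔ (x : G) ∈ stabilizer G b) ∧
      f.range.index = (toPermHom (stabilizer G a) (orbit (stabilizer G a) b)).range.index := by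
  let O := orbit (stabilizer G a) b
  let ρ := toPermHom (stabilizer G a) O
  let e : O ≃ Fin d := Finite.equivFinOfCardEq hd
  let b₀ : O := ⟨b, mem_orbit_self b⟩
  refine ⟨(permCongrHom e).toMonoidHom.comp ρ, e b₀, ?_, ?_, ?_⟩
  · intro x
    have h1 : ((permCongrHom e).toMonoidHom.comp ρ) x = 1 ↔ ρ x = 1 :=
      EmbeddingLike.map_eq_one_iff (f := permCongrHom e)
    rw [h1, mem_A1_iff]
    constructor
    · intro h
      refine ⟨x.2, fun y hy => ?_⟩
      have := congrArg (fun p : Perm O => ((p ⟨y, hy⟩ : O) : Ω)) h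
      exact this
    · rintro ⟨-, h⟩
      apply Equiv.ext
      rintro ⟨y, hy⟩
      apply Subtype.ext
      exact h y hy
  · intro x
    show e (ρ x (e.symm (e b₀))) = e b₀ ↔ _
    rw [e.symm_apply_apply, e.injective.eq_iff, MulAction.mem_stabilizer_iff]
    constructor
    · intro h
      exact congrArg Subtype.val h
    · intro h
      exact Subtype.ext h
  · rw [MonoidHom.range_comp]
    exact Subgroup.index_map_of_bijective (permCongrHom e).bijective _

theorem relIndex_eq_card_range {R Q : Subgroup G} {n : ℕ} (f : R →* Perm (Fin n))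
    (hker : ∀ x : R, f x = 1 ↔ (x : G) ∈ Q) : Q.relIndex R = Nat.card f.range := by
  have : Q.subgroupOf R = f.ker := by
    ext x
    rw [Subgroup.mem_subgroupOf, MonoidHom.mem_ker, hker]
  rw [Subgroup.relIndex, this, Subgroup.index_ker]

theorem env_of_action [FaithfulSMul G Ω] [Finite Ω] (hprim : IsPreprimitive G Ω) (a b : Ω)
    (hd : Nat.card (orbit (stabilizer G a) b) = d) (h6 : 6 ≤ d)
    (halt : (toPermHom (stabilizer G a) (orbit (stabilizer G a) b)).range.index ≤ 2)
    (hunf : ¬ Function.Injective (toPermHom (stabilizer G a) (orbit (stabilizer G a) b))) :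
    Env (stabilizer G a) (stabilizer G b) d := by
  have P := pair_of_action hprim a b (by omega)
  obtain ⟨f, s, hf1, hf2, hf3⟩ := orbit_hom a b hd
  have hAP : APw f (A1 (stabilizer G a) (stabilizer G b)) :=
    ⟨A1_le_left _ _, hf1, Perm.alternatingGroup_le_of_index_le_two (by rw [hf3]; exact halt)⟩
  have S₁ := side_of_fM (by omega) hAP hf2
  have hK : A1 (stabilizer G a) (stabilizer G b) ≠ ⊥ := by
    intro h
    apply hunf
    rw [injective_iff_map_eq_one]
    intro x hx
    have h1 : (x : G) ∈ A1 (stabilizer G a) (stabilizer G b) := by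
      rw [mem_A1_iff]
      refine ⟨x.2, fun y hy => ?_⟩
      have := congrArg (fun p : Perm (orbit (stabilizer G a) b) => ((p ⟨y, hy⟩ : orbit (stabilizer G a) b) : Ω)) hx
      exact this
    rw [h, Subgroup.mem_bot] at h1
    exact Subtype.ext h1
  have hcardK := side_card P h6 S₁ hK
  have hdN : Nat.card (orbit (stabilizer G b) a) = d := by
    have h1 := relIndex_N P S₁
    rw [Nat.card_coe_set_eq, ← MulAction.index_stabilizer, ← h1, Subgroup.relIndex]
    congr 1
    ext x
    rw [Subgroup.mem_subgroupOf, MulAction.mem_stabilizer_iff]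
    constructor
    · intro h
      exact ⟨h, x.2⟩
    · intro h
      exact h.1
  obtain ⟨f', s', hf'1, hf'2, hf'3⟩ := orbit_hom b a hdN
  have hidx : f'.range.index ≤ 2 := by
    have h1 := Subgroup.index_mul_card f'.range
    rw [Nat.card_perm, Nat.card_eq_fintype_card (α := Fin d), Fintype.card_fin] at h1
    rw [relIndex_eq_card_range f' hf'1, ← h1] at hcardK
    have h2 : f'.range.index * Nat.card f'.range ≤ 2 * Nat.card f'.range := hcardK
    exact Nat.le_of_mul_le_mul_right h2 Nat.card_pos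
  have hAP' : APw f' (A1 (stabilizer G b) (stabilizer G a)) :=
    ⟨A1_le_left _ _, hf'1, Perm.alternatingGroup_le_of_index_le_two hidx⟩
  have S₂ := side_of_fM (by omega) hAP' hf'2
  exact ⟨P, S₁, S₂, h6, hK⟩

/-- Knapp's theorem. -/
theorem knapp [FaithfulSMul G Ω] [Finite Ω] (hprim : IsPreprimitive G Ω) (a b : Ω)
    (hd : Nat.card (orbit (stabilizer G a) b) = d) (h6 : 6 ≤ d)
    (halt : (toPermHom (stabilizer G a) (orbit (stabilizer G a) b)).range.index ≤ 2)
    (hunf : ¬ Function.Injective (toPermHom (stabilizer G a) (orbit (stabilizer G a) b))) :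
    ((toPermHom (stabilizer G a) (orbit (stabilizer G a) b)).range.index = 2 ∧
      Nonempty (stabilizer G a ≃* alternatingGroup (Fin d) × alternatingGroup (Fin (d - 1)))) ∨
    ((toPermHom (stabilizer G a) (orbit (stabilizer G a) b)).range = ⊤ ∧
      (Nonempty (stabilizer G a ≃* Perm (Fin d) × Perm (Fin (d - 1))) ∨
       Nonempty (stabilizer G a ≃* Perm (Fin d) × alternatingGroup (Fin (d - 1))) ∨
       Nonempty (stabilizer G a ≃* ((Perm.sign.comp (MonoidHom.fst (Perm (Fin d)) (Perm (Fin (d - 1))))) *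
         (Perm.sign.comp (MonoidHom.snd (Perm (Fin d)) (Perm (Fin (d - 1)))))).ker))) := by
  have E := env_of_action hprim a b hd h6 halt hunf
  obtain ⟨f, s, hf1, hf2, hf3⟩ := orbit_hom a b hd
  have hAP : APw f (A1 (stabilizer G a) (stabilizer G b)) :=
    ⟨A1_le_left _ _, hf1, Perm.alternatingGroup_le_of_index_le_two (by rw [hf3]; exact halt)⟩
  haveI : Nontrivial (Fin d) := Fin.nontrivial_iff_two_le.mpr (by omega)
  rcases env_final E hAP hf2 with ⟨h1, h2⟩ | ⟨h1, h2⟩
  · left
    refine ⟨?_, h2⟩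
    rw [← hf3, h1]
    exact alternatingGroup.index_eq_two
  · right
    refine ⟨?_, h2⟩
    rw [← Subgroup.index_eq_one, ← hf3, h1]
    simp

end Action

end Cfsg.Agent.Lib.KnappD
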