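import Mathlib
import Cfsg.Agent.S3975
import Cfsg.Agent.Lib.KulakoffOdd

/-!
The number of subgroups of order `p^a` of `G` is congruent modulo `p²` to the number of those of a
Sylow `p`-subgroup, provided `p^(a+1)` divides `|G|`.
-/

set_option autoImplicit false
set_option linter.style.haveILetI false

namespace Cfsg.Agent.Lib.KulakoffSylow

open Subgroup
open Cfsg.Agent.Lib.KulakoffOdd
open scoped Pointwise

universe u

variable {G : Type*} [Group G]

/-- Conjugate of a subgroup. -/
def cj (g : G) (H : Subgroup G) : Subgroup G := H.map (MulAut.conj g).toMonoidHom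

lemma mem_cj {g x : G} {H : Subgroup G} : x ∈ cj g H ↔ g⁻¹ * x * g ∈ H := by
  constructor
  · rintro ⟨y, hy, rfl⟩
    have : g⁻¹ * (g * y * g⁻¹) * g = y := by group
    show g⁻¹ * (g * y * g⁻¹) * g ∈ H
    rwa [this]
  · intro h
    exact ⟨_, h, by show g * (g⁻¹ * x * g) * g⁻¹ = x; group⟩

lemma conj_mem_cj {g x : G} {H : Subgroup G} (hx : x ∈ H) : g * x * g⁻¹ ∈ cj g H := ⟨x, hx, rfl⟩

lemma card_cj (g : G) (H : Subgroup G) : Nat.card (cj g H) = Nat.card H :=
  Nat.card_congr (Subgroup.equivMapOfInjective H _ (MulAut.conj g).injective).toEquiv.symm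

lemma cj_one (H : Subgroup G) : cj 1 H = H := by
  ext x
  simp [mem_cj]

lemma cj_mul (g h : G) (H : Subgroup G) : cj (g * h) H = cj g (cj h H) := by
  ext x
  simp only [mem_cj]
  have : (g * h)⁻¹ * x * (g * h) = h⁻¹ * (g⁻¹ * x * g) * h := by group
  rw [this]

lemma cj_le {g : G} {H K : Subgroup G} (h : H ≤ K) : cj g H ≤ cj g K := Subgroup.map_mono h

lemma cj_le_iff {g : G} {H K : Subgroup G} : cj g H ≤ cj g K ↔ H ≤ K := by
  constructor
  · intro h x hx
    have := h (conj_mem_cj (g := g) hx)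
    rw [mem_cj] at this
    have e : g⁻¹ * (g * x * g⁻¹) * g = x := by group
    rwa [e] at this
  · exact cj_le

lemma cj_inv_cj (g : G) (H : Subgroup G) : cj g⁻¹ (cj g H) = H := by
  rw [← cj_mul, inv_mul_cancel, cj_one]

lemma cj_cj_inv (g : G) (H : Subgroup G) : cj g (cj g⁻¹ H) = H := by
  rw [← cj_mul, mul_inv_cancel, cj_one]

lemma cj_eq_of_mem_normalizer {g : G} {H : Subgroup G} (hg : g ∈ normalizer (H : Set G)) : cj g H = H := by
  ext x
  rw [mem_cj]
  have h1 := Subgroup.mem_normalizer_iff.mp hg (g⁻¹ * x * g)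
  have e : g * (g⁻¹ * x * g) * g⁻¹ = x := by group
  rw [e] at h1
  exact h1

lemma mem_normalizer_of_cj_eq {g : G} {H : Subgroup G} (h : cj g H = H) : g ∈ normalizer (H : Set G) := by
  rw [Subgroup.mem_normalizer_iff]
  intro x
  constructor
  · intro hx
    rw [← h]
    exact conj_mem_cj hx
  · intro hx
    rw [← h, mem_cj] at hx
    have e : g⁻¹ * (g * x * g⁻¹) * g = x := by group
    rwa [e] at hx

lemma cj_normalizer_le {g : G} {T H : Subgroup G} (h : T ≤ normalizer (H : Set G)) :
    cj g T ≤ normalizer (cj g H : Set G) := by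
  intro x hx
  rw [mem_cj] at hx
  have ht := Subgroup.mem_normalizer_iff.mp (h hx)
  rw [Subgroup.mem_normalizer_iff]
  intro y
  rw [mem_cj, mem_cj, ht]
  have e : (g⁻¹ * x * g) * (g⁻¹ * y * g) * (g⁻¹ * x * g)⁻¹ = g⁻¹ * (x * y * x⁻¹) * g := by group
  rw [e]

/-- Intermediate subgroups when the index is prime. -/
lemma intermediate {p : ℕ} (hp : p.Prime) [Finite G] {A B C : Subgroup G} (hAB : A ≤ B) (hBC : B ≤ C)
    (hc : Nat.card C = p * Nat.card A) : B = A ∨ B = C := by
  obtain ⟨i, hi⟩ := Subgroup.card_dvd_of_le hAB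
  obtain ⟨j, hj⟩ := Subgroup.card_dvd_of_le hBC
  rw [hj, hi] at hc
  have hA : 0 < Nat.card A := Nat.card_pos
  have h1 : i * j = p := by
    have : Nat.card A * (i * j) = Nat.card A * p := by
      calc Nat.card A * (i * j) = Nat.card A * i * j := by ring
        _ = p * Nat.card A := hc
        _ = _ := by ring
    exact Nat.eq_of_mul_eq_mul_left hA this
  have h2 := (Nat.dvd_prime hp).mp (Dvd.intro j h1)
  rcases h2 with h2 | h2
  · left
    symm
    apply Subgroup.eq_of_le_of_card_ge hAB
    rw [hi, h2, mul_one]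
  · right
    apply Subgroup.eq_of_le_of_card_ge hBC
    have : j = 1 := by
      rw [h2] at h1
      have hp0 := hp.pos
      nlinarith [Nat.eq_of_mul_eq_mul_left hp0 (h1.trans (mul_one p).symm)]
    rw [hj, this, mul_one]

/-- A subgroup of index `p` in a `p`-subgroup is normalized by it. -/
lemma le_normalizer_of_card [Finite G] {p n : ℕ} (hp : p.Prime) {M T : Subgroup G} (hMT : M ≤ T)
    (hT : Nat.card T = p ^ (n + 1)) (hM : Nat.card M = p ^ n) : T ≤ normalizer (M : Set G) := by
  haveI : Fact p.Prime := ⟨hp⟩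
  have hidx : (M.subgroupOf T).index = (Nat.card T).minFac := by
    have h1 := Subgroup.card_mul_index (M.subgroupOf T)
    have h2 : Nat.card (M.subgroupOf T) = Nat.card M :=
      Nat.card_congr (Subgroup.subgroupOfEquivOfLe hMT).toEquiv
    rw [h2, hT, hM, pow_succ] at h1
    have h3 : (M.subgroupOf T).index = p :=
      Nat.eq_of_mul_eq_mul_left (pow_pos hp.pos n) h1
    rw [h3, hT, Nat.Prime.pow_minFac hp (by omega)]
  have hn : (M.subgroupOf T).Normal := normal_of_index_eq_minFac_card hidx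
  intro t ht
  rw [Subgroup.mem_normalizer_iff]
  intro x
  constructor
  · intro hx
    have h1 : (⟨x, hMT hx⟩ : T) ∈ M.subgroupOf T := hx
    have h2 := hn.conj_mem _ h1 ⟨t, ht⟩
    exact h2
  · intro hx
    have hxT : x ∈ T := by
      have h1 := T.mul_mem (T.mul_mem (T.inv_mem ht) (hMT hx)) ht
      have e : t⁻¹ * (t * x * t⁻¹) * t = x := by group
      rwa [e] at h1
    have h1 : (⟨t * x * t⁻¹, hMT hx⟩ : T) ∈ M.subgroupOf T := hx
    have h2 := hn.conj_mem _ h1 ⟨t⁻¹, T.inv_mem ht⟩
    have h3 : t⁻¹ * (t * x * t⁻¹) * t⁻¹⁻¹ ∈ M := h2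
    have e : t⁻¹ * (t * x * t⁻¹) * t⁻¹⁻¹ = x := by group
    rwa [e] at h3

/-! ### The fixed maximal subgroup -/

section count

variable {p : ℕ} [hp : Fact p.Prime] [Finite G]

/-- Conjugacy in the normalizer of a common normal subgroup. -/
lemma exists_conj_in_normalizer {M T T' : Subgroup G}
    (hT : Nat.card T = p ^ (Nat.card G).factorization p) (hT' : Nat.card T' = p ^ (Nat.card G).factorization p)
    (hTN : T ≤ normalizer (M : Set G)) (hTN' : T' ≤ normalizer (M : Set G)) :
    ∃ g ∈ normalizer (M : Set G), cj g T = T' := by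
  classical
  let S := Sylow.ofCard T hT
  let S' := Sylow.ofCard T' hT'
  have hS : (S : Subgroup G) = T := Sylow.coe_ofCard T hT
  have hS' : (S' : Subgroup G) = T' := Sylow.coe_ofCard T' hT'
  have h1 : (S : Subgroup G) ≤ normalizer (M : Set G) := hS ▸ hTN
  have h2 : (S' : Subgroup G) ≤ normalizer (M : Set G) := hS' ▸ hTN'
  obtain ⟨g, hg⟩ := MulAction.exists_smul_eq (normalizer (M : Set G)) (S.subtype h1) (S'.subtype h2)
  rw [Sylow.smul_subtype] at hg
  have hg2 := Sylow.subtype_injective hg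
  refine ⟨g, g.2, ?_⟩
  apply Subgroup.eq_of_le_of_card_ge
  · rintro x ⟨t, ht, rfl⟩
    have e : ((g • S : Sylow p G) : Set G) = MulAut.conj (g : G) • ((S : Subgroup G) : Set G) := rfl
    have hmem : (MulAut.conj (g : G)).toMonoidHom t ∈ ((g • S : Sylow p G) : Set G) := by
      rw [e]
      exact ⟨t, by rw [SetLike.mem_coe, hS]; exact ht, rfl⟩
    rw [hg2] at hmem
    rw [← hS']
    exact hmem
  · rw [card_cj, hT, hT']

lemma sylow_contain_modEq (M : Subgroup G) (hM : IsPGroup p M) :
    Nat.card {S : Sylow p G // M ≤ S} ≡ 1 [MOD p] := by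
  have h1 := hM.card_modEq_card_fixedPoints (Sylow p G)
  have h2 := card_sylow_modEq_one p G
  have h3 : Nat.card {S : Sylow p G // M ≤ S} = Nat.card (MulAction.fixedPoints M (Sylow p G)) := by
    apply Nat.card_congr
    apply Equiv.subtypeEquivRight
    intro S
    exact (IsPGroup.sylow_mem_fixedPoints_iff hM).symm
  rw [h3]
  exact h1.symm.trans h2

/-- The set of normal subgroups of `T` of order `n` not in `M`. -/
abbrev FF (M T : Subgroup G) (n : ℕ) : Type _ :=
  {H : Subgroup G // Nat.card H = n ∧ H ≤ T ∧ ¬ H ≤ M ∧ T ≤ normalizer (H : Set G)}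

lemma card_FF_eq {M T T' : Subgroup G} (n : ℕ)
    (hT : Nat.card T = p ^ (Nat.card G).factorization p) (hT' : Nat.card T' = p ^ (Nat.card G).factorization p)
    (hTN : T ≤ normalizer (M : Set G)) (hTN' : T' ≤ normalizer (M : Set G)) :
    Nat.card (FF M T n) = Nat.card (FF M T' n) := by
  obtain ⟨g, hg, hgT⟩ := exists_conj_in_normalizer hT hT' hTN hTN'
  have hgM : cj g M = M := cj_eq_of_mem_normalizer hg
  have hgM' : cj g⁻¹ M = M := cj_eq_of_mem_normalizer (Subgroup.inv_mem _ hg)
  have hgT' : cj g⁻¹ T' = T := by rw [← hgT, cj_inv_cj]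
  apply Nat.card_congr
  exact
    { toFun := fun H => ⟨cj g H.1, by
        refine ⟨(card_cj _ _).trans H.2.1, ?_, ?_, ?_⟩
        · rw [← hgT]; exact cj_le H.2.2.1
        · intro h
          exact H.2.2.2.1 (cj_le_iff.mp (h.trans (le_of_eq hgM.symm)))
        · rw [← hgT]; exact cj_normalizer_le H.2.2.2.2⟩
      invFun := fun H => ⟨cj g⁻¹ H.1, by
        refine ⟨(card_cj _ _).trans H.2.1, ?_, ?_, ?_⟩
        · rw [← hgT']; exact cj_le H.2.2.1
        · intro h
          exact H.2.2.2.1 (cj_le_iff.mp (h.trans (le_of_eq hgM'.symm)))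
        · rw [← hgT']; exact cj_normalizer_le H.2.2.2.2⟩
      left_inv := fun H => Subtype.ext (cj_inv_cj _ _)
      right_inv := fun H => Subtype.ext (cj_cj_inv _ _) }

/-- `p` divides the number of normal subgroups of `T` of order `p^a` not contained in `M`. -/
lemma prime_dvd_card_FF {M T : Subgroup G} {n a : ℕ} (hMT : M ≤ T)
    (hT : Nat.card T = p ^ (n + 1)) (hM : Nat.card M = p ^ n) (ha : a ≤ n) :
    p ∣ Nat.card (FF M T (p ^ a)) := by
  classical
  have hpo := hp.out
  have hTN : T ≤ normalizer (M : Set G) := le_normalizer_of_card hpo hMT hT hM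
  -- the set on which `T` acts
  let Y := {H : Subgroup G // Nat.card H = p ^ a ∧ H ≤ T ∧ ¬ H ≤ M}
  have hcj : ∀ (t : T) (H : Y), Nat.card (cj (t : G) H.1) = p ^ a ∧ cj (t : G) H.1 ≤ T ∧ ¬ cj (t : G) H.1 ≤ M := by
    intro t H
    refine ⟨(card_cj _ _).trans H.2.1, ?_, ?_⟩
    · have := cj_le (g := (t : G)) H.2.2.1
      rwa [cj_eq_of_mem_normalizer (T.le_normalizer t.2)] at this
    · intro h
      apply H.2.2.2
      exact cj_le_iff.mp (h.trans (le_of_eq (cj_eq_of_mem_normalizer (hTN t.2)).symm))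
  letI : MulAction T Y :=
    { smul := fun t H => ⟨cj (t : G) H.1, hcj t H⟩
      one_smul := fun H => Subtype.ext (cj_one H.1)
      mul_smul := fun s t H => Subtype.ext (cj_mul (s : G) (t : G) H.1) }
  have hsm : ∀ (t : T) (H : Y), (t • H).1 = cj (t : G) H.1 := fun _ _ => rfl
  have hpg : IsPGroup p T := IsPGroup.of_card hT
  have h1 := hpg.card_modEq_card_fixedPoints Y
  -- fixed points
  have h2 : Nat.card (MulAction.fixedPoints T Y) = Nat.card (FF M T (p ^ a)) := by
    apply Nat.card_congr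
    exact
      { toFun := fun H => ⟨H.1.1, H.1.2.1, H.1.2.2.1, H.1.2.2.2, by
          intro t ht
          apply mem_normalizer_of_cj_eq
          have := H.2 ⟨t, ht⟩
          exact congrArg Subtype.val this⟩
        invFun := fun H => ⟨⟨H.1, H.2.1, H.2.2.1, H.2.2.2.1⟩, by
          intro t
          apply Subtype.ext
          exact cj_eq_of_mem_normalizer (H.2.2.2.2 t.2)⟩
        left_inv := fun H => rfl
        right_inv := fun H => rfl }
  -- the counts
  have hcT : cntIn T (p ^ a) ≡ 1 [MOD p] := by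
    rw [← cnt_coe]
    apply cnt_modEq_one
    rw [hT]
    exact pow_dvd_pow p (by omega)
  have hcM : cntIn M (p ^ a) ≡ 1 [MOD p] := by
    rw [← cnt_coe]
    apply cnt_modEq_one
    rw [hM]
    exact pow_dvd_pow p ha
  have hsplit : cntIn T (p ^ a) = cntIn M (p ^ a) + Nat.card Y := by
    unfold cntIn
    rw [card_split (fun H : Subgroup G => H ≤ T ∧ Nat.card H = p ^ a) (fun H => H ≤ M)]
    congr 1
    · apply Nat.card_congr
      apply Equiv.subtypeEquivRight
      intro H
      constructor
      · rintro ⟨⟨-, h2⟩, h3⟩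
        exact ⟨h3, h2⟩
      · rintro ⟨h2, h3⟩
        exact ⟨⟨h2.trans hMT, h3⟩, h2⟩
    · apply Nat.card_congr
      apply Equiv.subtypeEquivRight
      intro H
      constructor
      · rintro ⟨⟨h1, h2⟩, h3⟩
        exact ⟨h2, h1, h3⟩
      · rintro ⟨h1, h2, h3⟩
        exact ⟨⟨h2, h1⟩, h3⟩
  have h3 : Nat.card Y ≡ 0 [MOD p] := by
    have h4 : cntIn M (p ^ a) + Nat.card Y ≡ cntIn M (p ^ a) + 0 [MOD p] := by
      rw [← hsplit, add_zero]
      exact hcT.trans hcM.symm
    exact Nat.ModEq.add_left_cancel' _ h4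
  rw [h2] at h1
  exact (Nat.modEq_zero_iff_dvd).mp (h1.symm.trans h3)

/-- The main count for a fixed maximal subgroup of the Sylow subgroup. -/
theorem fiber_dvd (P : Sylow p G) (M : Subgroup G) (hMP : M ≤ P) {n a : ℕ}
    (hn : (Nat.card G).factorization p = n + 1) (hM : Nat.card M = p ^ n) (ha : a ≤ n) :
    p ^ 2 ∣ Nat.card {H : Subgroup G // Nat.card H = p ^ a ∧ ¬ H ≤ P ∧
      (P : Subgroup G) ⊓ normalizer (H : Set G) = M} := by
  classical
  have hpo := hp.out
  have hScard : ∀ S : Sylow p G, Nat.card S = p ^ (n + 1) := by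
    intro S
    rw [S.card_eq_multiplicity, hn]
  have hcM : ∀ S : Sylow p G, Nat.card S = p * Nat.card M := by
    intro S
    rw [hScard, hM, pow_succ']
  have hMpg : IsPGroup p M := IsPGroup.of_card hM
  have hHpg : ∀ H : Subgroup G, Nat.card H = p ^ a → IsPGroup p H := fun H h => IsPGroup.of_card h
  let Target := {H : Subgroup G // Nat.card H = p ^ a ∧ ¬ H ≤ P ∧
      (P : Subgroup G) ⊓ normalizer (H : Set G) = M}
  let SS := {S : Sylow p G // M ≤ S ∧ S ≠ P}
  have key : ∀ H : Target, ∃ S : SS, (S.1 : Subgroup G) = M ⊔ H.1 := by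
    rintro ⟨H, h1, h2, h3⟩
    have hMN : M ≤ normalizer (H : Set G) := by
      rw [← h3]; exact inf_le_right
    have hT : IsPGroup p (M ⊔ H : Subgroup G) := IsPGroup.to_sup_of_normal_right' hMpg (hHpg H h1) hMN
    obtain ⟨S, hS⟩ := hT.exists_le_sylow
    have hHS : H ≤ S := le_sup_right.trans hS
    rcases intermediate hpo (le_sup_left : M ≤ M ⊔ H) hS (hcM S) with h4 | h4
    · exfalso
      apply h2
      exact (le_sup_right.trans (le_of_eq h4)).trans hMP
    · refine ⟨⟨S, le_sup_left.trans hS, ?_⟩, h4.symm⟩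
      rintro rfl
      exact h2 hHS
  choose τ hτ using key
  have hfib : ∀ S : SS, Nat.card {H : Target // τ H = S} = Nat.card (FF M S.1 (p ^ a)) := by
    intro S
    have hMS : M ≤ S.1 := S.2.1
    have hSP : S.1 ≠ P := S.2.2
    apply Nat.card_congr
    refine
      { toFun := fun H => ⟨H.1.1, H.1.2.1, ?_, ?_, ?_⟩
        invFun := fun H => ⟨⟨H.1, H.2.1, ?_, ?_⟩, ?_⟩
        left_inv := fun H => rfl
        right_inv := fun H => rfl }
    · have h1 := hτ H.1
      rw [H.2] at h1
      rw [h1]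
      exact le_sup_right
    · intro h
      exact H.1.2.2.1 (h.trans hMP)
    · have h1 := hτ H.1
      rw [H.2] at h1
      rw [h1]
      have h2 : M ≤ normalizer (H.1.1 : Set G) := (le_of_eq H.1.2.2.2.symm).trans inf_le_right
      exact sup_le h2 Subgroup.le_normalizer
    · -- not in `P`
      intro h
      have h1 : M ≤ (P : Subgroup G) ⊓ S.1 := le_inf hMP hMS
      rcases intermediate hpo h1 inf_le_right (hcM S.1) with h2 | h2
      · exact H.2.2.2.1 ((le_inf h H.2.2.1).trans (le_of_eq h2))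
      · apply hSP
        apply Sylow.ext
        apply Subgroup.eq_of_le_of_card_ge
        · exact (le_of_eq h2.symm).trans inf_le_left
        · rw [hScard, hScard]
    · -- the normalizer
      have h1 : M ≤ (P : Subgroup G) ⊓ normalizer (H.1 : Set G) := le_inf hMP (hMS.trans H.2.2.2.2)
      rcases intermediate hpo h1 inf_le_left (hcM P) with h2 | h2
      · exact h2
      · exfalso
        have h3 : (P : Subgroup G) ≤ normalizer (H.1 : Set G) := by
          rw [← h2]; exact inf_le_right
        have h4 : IsPGroup p ((P : Subgroup G) ⊔ H.1 : Subgroup G) :=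
          IsPGroup.to_sup_of_normal_right' P.isPGroup' (hHpg H.1 H.2.1) h3
        have h5 := P.is_maximal' h4 le_sup_left
        -- `H ≤ P`, hence `H ≤ M` as before
        have h6 : H.1 ≤ P := by
          rw [← h5]; exact le_sup_right
        have h7 : M ≤ (P : Subgroup G) ⊓ S.1 := le_inf hMP hMS
        rcases intermediate hpo h7 inf_le_right (hcM S.1) with h8 | h8
        · exact H.2.2.2.1 ((le_inf h6 H.2.2.1).trans (le_of_eq h8))
        · apply hSP
          apply Sylow.ext
          apply Subgroup.eq_of_le_of_card_ge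
          · exact (le_of_eq h8.symm).trans inf_le_left
          · rw [hScard, hScard]
    · -- `τ`
      apply Subtype.ext
      apply Sylow.ext
      rw [hτ]
      show M ⊔ H.1 = (S.1 : Subgroup G)
      rcases intermediate hpo (le_sup_left : M ≤ M ⊔ H.1) (sup_le hMS H.2.2.1) (hcM S.1) with h2 | h2
      · exfalso
        exact H.2.2.2.1 (le_sup_right.trans (le_of_eq h2))
      · exact h2
  -- the number of such Sylow subgroups
  have hSS : p ∣ Nat.card SS := by
    have h1 := sylow_contain_modEq M hMpg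
    rw [card_split (fun S : Sylow p G => M ≤ S) (fun S => S ≠ P)] at h1
    have h2 : Nat.card {S : Sylow p G // M ≤ S ∧ ¬ S ≠ P} = 1 := by
      rw [Nat.card_eq_one_iff_unique]
      refine ⟨⟨?_⟩, ⟨⟨P, hMP, by simp⟩⟩⟩
      rintro ⟨A, -, hA⟩ ⟨B, -, hB⟩
      apply Subtype.ext
      push Not at hA hB
      exact hA.trans hB.symm
    rw [h2] at h1
    have h3 : Nat.card SS + 1 ≡ 0 + 1 [MOD p] := by simpa using h1
    exact (Nat.modEq_zero_iff_dvd).mp (Nat.ModEq.add_right_cancel' 1 h3)
  have hconst : ∀ S : SS, Nat.card (FF M S.1 (p ^ a)) = Nat.card (FF M P (p ^ a)) := by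
    intro S
    have h1 : ∀ S : Sylow p G, M ≤ S → (S : Subgroup G) ≤ normalizer (M : Set G) := by
      intro S hS
      exact le_normalizer_of_card hpo hS (hScard S) hM
    exact card_FF_eq (p ^ a) (S.1.card_eq_multiplicity) (P.card_eq_multiplicity) (h1 _ S.2.1) (h1 P hMP)
  have hy : p ∣ Nat.card (FF M P (p ^ a)) := prime_dvd_card_FF hMP (hScard P) hM ha
  haveI : Fintype SS := Fintype.ofFinite _
  have hTcard : Nat.card Target = Nat.card SS * Nat.card (FF M P (p ^ a)) := by
    rw [← Nat.card_congr (Equiv.sigmaFiberEquiv τ), Nat.card_sigma,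
      Finset.sum_congr rfl (fun S _ => (hfib S).trans (hconst S)), Finset.sum_const, smul_eq_mul,
      Finset.card_univ, Nat.card_eq_fintype_card (α := SS)]
  show p ^ 2 ∣ Nat.card Target
  rw [hTcard, sq]
  exact Nat.mul_dvd_mul hSS hy

lemma dvd_card_of_invariant {A Y : Type*} [Group A] [MulAction A Y] [Finite Y] (Q : Y → Prop)
    (hQ : ∀ (a : A) (y : Y), Q y → Q (a • y)) (d : ℕ)
    (h : ∀ y, Q y → d ∣ (MulAction.stabilizer A y).index) : d ∣ Nat.card {y // Q y} := by
  let S : SubMulAction A Y :=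
    { carrier := {y | Q y}
      smul_mem' := fun a y hy => hQ a y hy }
  have h1 : d ∣ Nat.card S := by
    apply Cfsg.Agent.S3975.dvd_card_of_orbit A d
    intro y
    have h2 := h y.1 y.2
    rw [← SubMulAction.stabilizer_of_subMul, MulAction.index_stabilizer] at h2
    rwa [Nat.card_coe_set_eq]
  exact h1

/-- **Reduction to a Sylow subgroup.** -/
theorem cnt_modEq_sylow (P : Sylow p G) (a : ℕ) (hdvd : p ^ (a + 1) ∣ Nat.card G) :
    cnt G (p ^ a) ≡ cnt P (p ^ a) [MOD p ^ 2] := by
  classical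
  have hpo := hp.out
  have hfac : a + 1 ≤ (Nat.card G).factorization p :=
    (Nat.Prime.pow_dvd_iff_le_factorization hpo Nat.card_pos.ne').mp hdvd
  obtain ⟨n, hn⟩ : ∃ n, (Nat.card G).factorization p = n + 1 := ⟨_, (Nat.succ_pred_eq_of_pos (by omega)).symm⟩
  have han : a ≤ n := by omega
  have hPcard : Nat.card P = p ^ (n + 1) := by rw [P.card_eq_multiplicity, hn]
  -- split into subgroups of `P` and the others
  let Y := {H : Subgroup G // Nat.card H = p ^ a ∧ ¬ H ≤ P}
  have hsplit : cnt G (p ^ a) = cnt P (p ^ a) + Nat.card Y := by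
    rw [cnt_coe]
    unfold cnt cntIn
    rw [card_split (fun H : Subgroup G => Nat.card H = p ^ a) (fun H => H ≤ P)]
    congr 1
    apply Nat.card_congr
    apply Equiv.subtypeEquivRight
    intro H
    exact and_comm
  suffices h : p ^ 2 ∣ Nat.card Y by
    rw [hsplit]
    have h1 : Nat.card Y ≡ 0 [MOD p ^ 2] := (Nat.modEq_zero_iff_dvd).mpr h
    simpa using h1.add_left (cnt P (p ^ a))
  -- the action of `P`
  have hcj : ∀ (t : P) (H : Y), Nat.card (cj (t : G) H.1) = p ^ a ∧ ¬ cj (t : G) H.1 ≤ P := by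
    intro t H
    refine ⟨(card_cj _ _).trans H.2.1, ?_⟩
    intro h
    apply H.2.2
    have h1 : cj (t : G) (P : Subgroup G) = P := cj_eq_of_mem_normalizer (Subgroup.le_normalizer t.2)
    exact cj_le_iff.mp (h.trans (le_of_eq h1.symm))
  letI : MulAction P Y :=
    { smul := fun t H => ⟨cj (t : G) H.1, hcj t H⟩
      one_smul := fun H => Subtype.ext (cj_one H.1)
      mul_smul := fun s t H => Subtype.ext (cj_mul (s : G) (t : G) H.1) }
  have hsm : ∀ (t : P) (H : Y), (t • H).1 = cj (t : G) H.1 := fun _ _ => rfl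
  -- the stabilizer
  have hst : ∀ y : Y, (MulAction.stabilizer P y).map (P : Subgroup G).subtype =
      (P : Subgroup G) ⊓ normalizer (y.1 : Set G) := by
    intro y
    ext x
    constructor
    · rintro ⟨t, ht, rfl⟩
      refine ⟨t.2, ?_⟩
      apply mem_normalizer_of_cj_eq
      exact congrArg Subtype.val ht
    · rintro ⟨h1, h2⟩
      refine ⟨⟨x, h1⟩, ?_, rfl⟩
      apply Subtype.ext
      exact cj_eq_of_mem_normalizer h2
  have hidx : ∀ y : Y, Nat.card ((P : Subgroup G) ⊓ normalizer (y.1 : Set G) : Subgroup G) *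
      (MulAction.stabilizer P y).index = p ^ (n + 1) := by
    intro y
    rw [← hst y, Subgroup.card_subtype, Subgroup.card_mul_index, hPcard]
  -- the index is not one
  have hidx1 : ∀ y : Y, (MulAction.stabilizer P y).index ≠ 1 := by
    intro y h1
    have h2 := hidx y
    rw [h1, mul_one, ← hPcard] at h2
    have h3 : (P : Subgroup G) ≤ normalizer (y.1 : Set G) := by
      have h4 : (P : Subgroup G) ⊓ normalizer (y.1 : Set G) = P :=
        Subgroup.eq_of_le_of_card_ge inf_le_left (le_of_eq h2.symm)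
      exact (le_of_eq h4.symm).trans inf_le_right
    have h5 : IsPGroup p ((P : Subgroup G) ⊔ y.1 : Subgroup G) :=
      IsPGroup.to_sup_of_normal_right' P.isPGroup' (IsPGroup.of_card y.2.1) h3
    have h6 := P.is_maximal' h5 le_sup_left
    exact y.2.2 (le_sup_right.trans (le_of_eq h6))
  have hidxp : ∀ y : Y, ¬ p ^ 2 ∣ (MulAction.stabilizer P y).index →
      (MulAction.stabilizer P y).index = p := by
    intro y hy
    have h1 : (MulAction.stabilizer P y).index ∣ p ^ (n + 1) := Dvd.intro_left _ (hidx y)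
    obtain ⟨i, -, hi⟩ := (Nat.dvd_prime_pow hpo).mp h1
    rcases i with _ | _ | i
    · exact absurd (by simpa using hi) (hidx1 y)
    · simpa using hi
    · exfalso
      apply hy
      rw [hi]
      exact pow_dvd_pow p (by omega)
  have hY : Nat.card Y = Nat.card {y : Y // p ^ 2 ∣ (MulAction.stabilizer P y).index} +
      Nat.card {y : Y // ¬ p ^ 2 ∣ (MulAction.stabilizer P y).index} := by
    have h1 := card_split (α := Y) (fun _ => True) (fun y => p ^ 2 ∣ (MulAction.stabilizer P y).index)
    have e1 : Nat.card {y : Y // True} = Nat.card Y := Nat.card_congr (Equiv.subtypeUnivEquiv (fun _ => trivial))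
    rw [e1] at h1
    rw [h1]
    congr 1
    · apply Nat.card_congr
      apply Equiv.subtypeEquivRight
      intro y
      simp
    · apply Nat.card_congr
      apply Equiv.subtypeEquivRight
      intro y
      simp
  rw [hY]
  apply Nat.dvd_add
  · apply dvd_card_of_invariant (A := P)
    · intro a y hy
      have : (MulAction.stabilizer P (a • y)).index = (MulAction.stabilizer P y).index := by
        rw [MulAction.index_stabilizer, MulAction.orbit_smul, ← MulAction.index_stabilizer]
      rwa [this]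
    · exact fun y hy => hy
  · -- sum over the possible stabilizers
    let W := {y : Y // ¬ p ^ 2 ∣ (MulAction.stabilizer P y).index}
    let μ : W → Subgroup G := fun y => (P : Subgroup G) ⊓ normalizer (y.1.1 : Set G)
    haveI : Fintype (Subgroup G) := Fintype.ofFinite _
    show p ^ 2 ∣ Nat.card W
    rw [← Nat.card_congr (Equiv.sigmaFiberEquiv μ), Nat.card_sigma]
    apply Finset.dvd_sum
    intro M₀ _
    by_cases hne : Nonempty {y : W // μ y = M₀}
    · obtain ⟨⟨y₀, hy₀⟩⟩ := hne
      have hM₀P : M₀ ≤ P := by rw [← hy₀]; exact inf_le_left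
      have hM₀card : Nat.card M₀ = p ^ n := by
        have h1 := hidx y₀.1
        rw [hidxp y₀.1 y₀.2] at h1
        rw [← hy₀]
        have h2 : Nat.card ((P : Subgroup G) ⊓ normalizer (y₀.1.1 : Set G) : Subgroup G) * p = p ^ n * p := by
          rw [h1, pow_succ]
        exact Nat.eq_of_mul_eq_mul_right hpo.pos h2
      have hfb := fiber_dvd P M₀ hM₀P hn hM₀card han (a := a)
      have hidxM : ∀ H : Y, (P : Subgroup G) ⊓ normalizer (H.1 : Set G) = M₀ →
          ¬ p ^ 2 ∣ (MulAction.stabilizer P H).index := by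
        intro H hH h2
        have h1 := hidx H
        rw [hH, hM₀card, pow_succ] at h1
        have h3 := Nat.eq_of_mul_eq_mul_left (pow_pos hpo.pos n) h1
        rw [h3] at h2
        have h4 := Nat.le_of_dvd hpo.pos h2
        have h5 := hpo.two_le
        nlinarith
      have e : {y : W // μ y = M₀} ≃ {H : Subgroup G // Nat.card H = p ^ a ∧ ¬ H ≤ P ∧
          (P : Subgroup G) ⊓ normalizer (H : Set G) = M₀} :=
        { toFun := fun y => ⟨y.1.1.1, y.1.1.2.1, y.1.1.2.2, y.2⟩
          invFun := fun H => ⟨⟨⟨H.1, H.2.1, H.2.2.1⟩, hidxM ⟨H.1, H.2.1, H.2.2.1⟩ H.2.2.2⟩, H.2.2.2⟩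
          left_inv := fun y => rfl
          right_inv := fun H => rfl }
      rw [Nat.card_congr e]
      exact hfb
    · rw [not_nonempty_iff] at hne
      rw [Nat.card_of_isEmpty]
      exact dvd_zero _

end count

end Cfsg.Agent.Lib.KulakoffSylow
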