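import Mathlib
import Cfsg.Agent.Lib.L33TcData
import Cfsg.Agent.Lib.TableAction
import Cfsg.Agent.Lib.Psl33Abs
import Cfsg.Agent.Lib.SmallGroups
import Cfsg.Agent.Lib.SmallGroups2
import Cfsg.Agent.Lib.SmallGroups3

/-!
# The Steinberg relations of `SL₃(3)`

A finite simple-target group of order `5616` with six elements satisfying the Steinberg relations
of degree three over the field with three elements, the first element being nontrivial, is
isomorphic to `SL₃(3)`.  The bound comes from a coset enumeration (`L33TcData`).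
-/

set_option autoImplicit false
set_option linter.unusedVariables false
set_option linter.unusedSectionVars false
set_option maxRecDepth 100000

namespace Cfsg.Agent.Lib.L33Pres

open Cfsg.Agent.Lib.MiniTC Cfsg.Agent.Lib.L33TcData

section general

variable {G : Type*} [Group G]

/-- The Steinberg relations. -/
structure StRel (a12 a13 a23 a21 a31 a32 : G) : Prop where
  p12 : a12 ^ 3 = 1
  p13 : a13 ^ 3 = 1
  p23 : a23 ^ 3 = 1
  p21 : a21 ^ 3 = 1
  p31 : a31 ^ 3 = 1
  p32 : a32 ^ 3 = 1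
  c1 : a12 * a13 * a12⁻¹ * a13⁻¹ = 1
  c2 : a12 * a32 * a12⁻¹ * a32⁻¹ = 1
  c3 : a23 * a13 * a23⁻¹ * a13⁻¹ = 1
  c4 : a23 * a21 * a23⁻¹ * a21⁻¹ = 1
  c5 : a31 * a21 * a31⁻¹ * a21⁻¹ = 1
  c6 : a31 * a32 * a31⁻¹ * a32⁻¹ = 1
  s1 : a12 * a23 * a12⁻¹ * a23⁻¹ = a13
  s2 : a23 * a31 * a23⁻¹ * a31⁻¹ = a21
  s3 : a31 * a12 * a31⁻¹ * a12⁻¹ = a32
  s4 : a13 * a32 * a13⁻¹ * a32⁻¹ = a12
  s5 : a21 * a13 * a21⁻¹ * a13⁻¹ = a23
  s6 : a32 * a21 * a32⁻¹ * a21⁻¹ = a31

/-- The letters. -/
def lett (a b c d e f : G) : ℕ → G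
  | 0 => a
  | 1 => b
  | 2 => c
  | 3 => d
  | 4 => e
  | 5 => f
  | 6 => a⁻¹
  | 7 => b⁻¹
  | 8 => c⁻¹
  | 9 => d⁻¹
  | 10 => e⁻¹
  | 11 => f⁻¹
  | _ + 12 => 1

/-- The value of a word. -/
def evW (g : ℕ → G) (w : List ℕ) : G := (w.map g).prod

@[simp] theorem evW_nil (g : ℕ → G) : evW g [] = 1 := rfl

@[simp] theorem evW_cons (g : ℕ → G) (i : ℕ) (w : List ℕ) : evW g (i :: w) = g i * evW g w := by
  simp [evW]

theorem lett_invL (a b c d e f : G) (g : ℕ) : lett a b c d e f (invL g) = (lett a b c d e f g)⁻¹ := by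
  by_cases h : g < 12
  · interval_cases g <;> simp [invL, lett]
  · obtain ⟨n, rfl⟩ : ∃ n, g = n + 12 := ⟨g - 12, by omega⟩
    have h1 : invL (n + 12) = n + 12 := by
      unfold invL
      rw [if_neg (by omega), if_neg (by omega)]
    rw [h1]
    simp [lett]

variable {a b c d e f : G}

theorem evW_rel (h : StRel a b c d e f) (ri : ℕ) (hri : ri < 18) :
    evW (lett a b c d e f) (relsSub.getD ri []) = 1 := by
  have p3 : ∀ x : G, x ^ 3 = 1 → x * (x * (x * 1)) = 1 := by
    intro x hx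
    have h1 : x * (x * (x * 1)) = x ^ 3 := by rw [mul_one, pow_three]
    rw [h1, hx]
  have c4 : ∀ x y : G, x * y * x⁻¹ * y⁻¹ = 1 → x * (y * (x⁻¹ * (y⁻¹ * 1))) = 1 := by
    intro x y hx
    have h1 : x * (y * (x⁻¹ * (y⁻¹ * 1))) = x * y * x⁻¹ * y⁻¹ := by group
    rw [h1, hx]
  have c5 : ∀ x y z : G, x * y * x⁻¹ * y⁻¹ = z → x * (y * (x⁻¹ * (y⁻¹ * (z⁻¹ * 1)))) = 1 := by
    intro x y z hx
    have h1 : x * (y * (x⁻¹ * (y⁻¹ * (z⁻¹ * 1)))) = (x * y * x⁻¹ * y⁻¹) * z⁻¹ := by group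
    rw [h1, hx, mul_inv_cancel]
  interval_cases ri
  · exact p3 _ h.p12
  · exact p3 _ h.p13
  · exact p3 _ h.p23
  · exact p3 _ h.p21
  · exact p3 _ h.p31
  · exact p3 _ h.p32
  · exact c4 _ _ h.c1
  · exact c4 _ _ h.c2
  · exact c4 _ _ h.c3
  · exact c4 _ _ h.c4
  · exact c4 _ _ h.c5
  · exact c4 _ _ h.c6
  · exact c5 _ _ _ h.s1
  · exact c5 _ _ _ h.s2
  · exact c5 _ _ _ h.s3
  · exact c5 _ _ _ h.s4
  · exact c5 _ _ _ h.s5
  · exact c5 _ _ _ h.s6

/-- The closure of the table, in a usable form. -/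
theorem closed_form {j g : ℕ} (hj : j ∈ live) (hg : g < 12) :
    ∃ y, qEdge cfg (final cfg lets relsSub 18 tree trace) j g = y + 1 ∧ y ∈ live := by
  have h := closed_check
  unfold closedB at h
  rw [List.all_eq_true] at h
  have h1 := h j hj
  rw [List.all_eq_true] at h1
  have h2 := h1 g (by
    simp only [lets, List.mem_cons, List.not_mem_nil, or_false]
    omega)
  revert h2
  cases hq : qEdge cfg (final cfg lets relsSub 18 tree trace) j g with
  | zero => simp
  | succ y =>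
    intro h2
    exact ⟨y, rfl, memB_iff _ _ h2⟩

theorem index_le_624 [Finite G] (h : StRel a b c d e f)
    (hgen : Subgroup.closure (Set.range (fun i : Fin 6 => lett a b c d e f i)) = ⊤)
    (H : Subgroup G) (ha : a ∈ H) (hb : b ∈ H) : H.index ≤ 624 := by
  classical
  let g := lett a b c d e f
  let act : ℕ → (G ⧸ H) → (G ⧸ H) := fun i x => (g i)⁻¹ • x
  have hw : ∀ (w : List ℕ) (x : G ⧸ H), wAct act w x = (evW g w)⁻¹ • x := by
    intro w
    induction w with
    | nil => intro x; simp [wAct]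
    | cons i w ih =>
      intro x
      simp only [wAct, ih, evW_cons, mul_inv_rev, mul_smul, act]
  have hi := lett_invL a b c d e f
  have hinv : ∀ i x, act (cfg.inv i) (act i x) = x := by
    intro i x
    show (g (invL i))⁻¹ • (g i)⁻¹ • x = x
    rw [show g (invL i) = (g i)⁻¹ from hi i, inv_inv, smul_inv_smul]
  have hinv' : ∀ i x, act i (act (cfg.inv i) x) = x := by
    intro i x
    show (g i)⁻¹ • (g (invL i))⁻¹ • x = x
    rw [show g (invL i) = (g i)⁻¹ from hi i, inv_inv, inv_smul_smul]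
  have hfix : ∀ u ∈ H, u⁻¹ • ((1 : G) : G ⧸ H) = ((1 : G) : G ⧸ H) := by
    intro u hu
    rw [MulAction.Quotient.smul_coe]
    simp only [smul_eq_mul, mul_one]
    exact QuotientGroup.eq.mpr (by simpa using hu)
  have hR : ∀ ri x, ri < 18 → wAct act (relsSub.getD ri []) x = x := by
    intro ri x hri
    rw [hw, evW_rel h ri hri]
    simp
  have hS : ∀ ri, wAct act (relsSub.getD ri []) ((1 : G) : G ⧸ H) = ((1 : G) : G ⧸ H) := by
    intro ri
    by_cases hri : ri < 18
    · exact hR ri _ hri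
    · by_cases h18 : ri = 18
      · subst h18
        rw [hw]
        have : evW g (relsSub.getD 18 []) = a := by
          show a * 1 = a
          exact mul_one a
        rw [this]
        exact hfix a ha
      · by_cases h19 : ri = 19
        · subst h19
          rw [hw]
          have : evW g (relsSub.getD 19 []) = b := by
            show b * 1 = b
            exact mul_one b
          rw [this]
          exact hfix b hb
        · have : relsSub.getD ri [] = [] := by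
            rw [List.getD_eq_default]
            have : relsSub.length = 20 := by decide
            omega
          rw [this]
          rfl
  obtain ⟨v, h0, hg⟩ := exists_good (C := cfg) (act := act) hinv hinv' ((1 : G) : G ⧸ H)
    (L := lets) (R := relsSub) (nrel := 18) hR hS tree trace
  have hstep : ∀ {j i : ℕ}, j ∈ live → i < 12 → ∃ y ∈ live, v y = (g i)⁻¹ • v j := by
    intro j i hj hi'
    obtain ⟨y, hy, hyl⟩ := closed_form hj hi'
    exact ⟨y, hyl, qEdge_sound hg hy⟩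
  let S : Submonoid G :=
    { carrier := {u | ∀ j ∈ live, ∃ y ∈ live, v y = u⁻¹ • v j}
      one_mem' := fun j hj => ⟨j, hj, by simp⟩
      mul_mem' := by
        intro u u' hu hu' j hj
        obtain ⟨y, hy, hy1⟩ := hu j hj
        obtain ⟨y', hy', hy1'⟩ := hu' y hy
        exact ⟨y', hy', by rw [hy1', hy1, mul_inv_rev, mul_smul]⟩ }
  have hSt : S = ⊤ := by
    apply Cfsg.Agent.Lib.TableAction.submonoid_eq_top_of_closure _ hgen
    intro i j hj
    have hi2 : (i : ℕ) < 12 := by have := i.2; omega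
    exact hstep hj hi2
  have hsurj : ∀ x : G ⧸ H, ∃ y ∈ live, v y = x := by
    intro x
    obtain ⟨u, rfl⟩ := QuotientGroup.mk_surjective x
    have hx : u⁻¹ ∈ S := by rw [hSt]; trivial
    obtain ⟨y, hy, h1⟩ := hx 0 zero_mem
    refine ⟨y, hy, ?_⟩
    rw [h1, h0, inv_inv, MulAction.Quotient.smul_coe]
    simp
  let F : Fin live.length → G ⧸ H := fun i => v live[i]
  have hF : Function.Surjective F := by
    intro x
    obtain ⟨y, hy, h1⟩ := hsurj x
    obtain ⟨i, hi', rfl⟩ := List.getElem_of_mem hy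
    exact ⟨⟨i, hi'⟩, h1⟩
  have h3 := Nat.card_le_card_of_surjective F hF
  rw [Nat.card_fin, live_length] at h3
  exact h3

/-- The subgroup generated by two commuting elements of order three. -/
def pairH (x y : G) (hx : x ^ 3 = 1) (hy : y ^ 3 = 1) (hxy : x * y = y * x) : Subgroup G where
  carrier := {g | ∃ i j : ℕ, g = x ^ i * y ^ j}
  one_mem' := ⟨0, 0, by simp⟩
  mul_mem' := by
    rintro _ _ ⟨i, j, rfl⟩ ⟨k, l, rfl⟩
    refine ⟨i + k, j + l, ?_⟩
    have hc : Commute (y ^ j) (x ^ k) := ((Commute.symm hxy).pow_pow j k)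
    rw [pow_add, pow_add]
    calc x ^ i * y ^ j * (x ^ k * y ^ l) = x ^ i * (y ^ j * x ^ k) * y ^ l := by group
      _ = x ^ i * (x ^ k * y ^ j) * y ^ l := by rw [hc.eq]
      _ = x ^ i * x ^ k * (y ^ j * y ^ l) := by group
  inv_mem' := by
    rintro _ ⟨i, j, rfl⟩
    refine ⟨2 * i, 2 * j, ?_⟩
    apply inv_eq_of_mul_eq_one_right
    have hc : Commute (y ^ j) (x ^ (2 * i)) := ((Commute.symm hxy).pow_pow j (2 * i))
    calc x ^ i * y ^ j * (x ^ (2 * i) * y ^ (2 * j)) = x ^ i * (y ^ j * x ^ (2 * i)) * y ^ (2 * j) := by group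
      _ = x ^ i * (x ^ (2 * i) * y ^ j) * y ^ (2 * j) := by rw [hc.eq]
      _ = (x ^ i * x ^ (2 * i)) * (y ^ j * y ^ (2 * j)) := by group
      _ = (x ^ 3) ^ i * (y ^ 3) ^ j := by
        rw [← pow_add, ← pow_add, ← pow_mul, ← pow_mul]
        congr 2 <;> ring
      _ = 1 := by rw [hx, hy]; simp

theorem card_pairH_le (x y : G) (hx : x ^ 3 = 1) (hy : y ^ 3 = 1) (hxy : x * y = y * x) :
    Nat.card (pairH x y hx hy hxy) ≤ 9 := by
  let F : Fin 3 × Fin 3 → pairH x y hx hy hxy := fun p =>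
    ⟨x ^ (p.1 : ℕ) * y ^ (p.2 : ℕ), ⟨p.1, p.2, rfl⟩⟩
  have hF : Function.Surjective F := by
    rintro ⟨_, i, j, rfl⟩
    refine ⟨(⟨i % 3, Nat.mod_lt _ (by norm_num)⟩, ⟨j % 3, Nat.mod_lt _ (by norm_num)⟩), ?_⟩
    apply Subtype.ext
    show x ^ (i % 3) * y ^ (j % 3) = _
    rw [← pow_eq_pow_mod i hx, ← pow_eq_pow_mod j hy]
  have h1 := Nat.card_le_card_of_surjective F hF
  simpa using h1

theorem card_le_5616 [Finite G] (h : StRel a b c d e f)
    (hgen : Subgroup.closure (Set.range (fun i : Fin 6 => lett a b c d e f i)) = ⊤) :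
    Nat.card G ≤ 5616 := by
  have hab : a * b = b * a := by
    have := h.c1
    have h2 : a * b = a * b * a⁻¹ * b⁻¹ * (b * a) := by group
    rw [h2, this, one_mul]
  let H := pairH a b h.p12 h.p13 hab
  have ha : a ∈ H := ⟨1, 0, by simp⟩
  have hb : b ∈ H := ⟨0, 1, by simp⟩
  have h1 := index_le_624 h hgen H ha hb
  have h2 := card_pairH_le a b h.p12 h.p13 hab
  have h3 := H.index_mul_card
  rw [← h3]
  exact Nat.mul_le_mul h1 h2

/-- Two independent commuting elements of order three. -/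
theorem nine_dvd {X : Type*} [Group X] [Finite X] (x y : X) (hx : orderOf x = 3) (hy : orderOf y = 3)
    (hxy : x * y = y * x) (hn : ∀ k : ℕ, y ≠ x ^ k) : 9 ∣ Nat.card X := by
  classical
  by_contra h9
  have : Fact (Nat.Prime 3) := ⟨by norm_num⟩
  obtain ⟨Q, hQ⟩ := Cfsg.Agent.Lib.SmallGroups2.exists_sylow_mem_of_orderOf hx
  have hcard : Nat.card Q = 3 := by
    rw [Q.card_eq_multiplicity]
    have h3 : 3 ∣ Nat.card X := by
      rw [← hx]; exact orderOf_dvd_natCard x
    have hc : Nat.card X ≠ 0 := Nat.card_pos.ne'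
    have h1 : (Nat.card X).factorization 3 = 1 := by
      have h4 : 1 ≤ (Nat.card X).factorization 3 :=
        (Nat.Prime.dvd_iff_one_le_factorization (by norm_num) hc).1 h3
      have h5 : ¬ 2 ≤ (Nat.card X).factorization 3 := by
        intro h6
        apply h9
        have := (Nat.Prime.pow_dvd_iff_le_factorization (p := 3) (k := 2) (by norm_num) hc).2 h6
        simpa using this
      omega
    rw [h1]; norm_num
  have hQz : (Q : Subgroup X) = Subgroup.zpowers x := by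
    apply (Subgroup.eq_of_le_of_card_ge _ _).symm
    · rw [Subgroup.zpowers_le]; exact hQ
    · rw [Nat.card_zpowers, hx, hcard]
  have hnorm : y ∈ Subgroup.normalizer ((Q : Subgroup X) : Set X) := by
    rw [hQz]
    have : y ∈ Subgroup.centralizer ((Subgroup.zpowers x : Subgroup X) : Set X) := by
      rw [Subgroup.mem_centralizer_iff]
      intro g hg
      obtain ⟨k, rfl⟩ := Subgroup.mem_zpowers_iff.1 hg
      exact ((Commute.zpow_left (show Commute x y from hxy) k)).eq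
    exact Subgroup.centralizer_le_normalizer _ this
  have hm := Cfsg.Agent.Lib.SmallGroups3.mem_of_orderOf_of_mem_normalizer Q hy hnorm
  rw [hQz] at hm
  obtain ⟨k, hk⟩ := (mem_powers_iff_mem_zpowers.2 hm)
  exact hn k hk.symm

end general

section SL3

open Cfsg.Agent.Lib.Psl33Data

/-- Elementary matrices. -/
def e12 : SL3 := ⟨!![1, 1, 0; 0, 1, 0; 0, 0, 1], by decide⟩
def e13 : SL3 := ⟨!![1, 0, 1; 0, 1, 0; 0, 0, 1], by decide⟩
def e23 : SL3 := ⟨!![1, 0, 0; 0, 1, 1; 0, 0, 1], by decide⟩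
def e21 : SL3 := ⟨!![1, 0, 0; 1, 1, 0; 0, 0, 1], by decide⟩
def e31 : SL3 := ⟨!![1, 0, 0; 0, 1, 0; 1, 0, 1], by decide⟩
def e32 : SL3 := ⟨!![1, 0, 0; 0, 1, 0; 0, 1, 1], by decide⟩

theorem stRel_SL3 : StRel e12 e13 e23 e21 e31 e32 := by
  constructor <;> decide +kernel

/-- `SL₃(3)` is simple. -/
theorem isSimple_SL3 : IsSimpleGroup SL3 :=
  (Cfsg.Agent.Lib.Psl33Abs.hypOfEquiv (X := SL3) (Equiv.refl _) (fun _ _ => Iff.rfl)).isSimple

theorem not_comm_SL3 : ¬ IsMulCommutative SL3 := by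
  intro h
  have h1 : e12 * e23 = e23 * e12 := h.is_comm.comm e12 e23
  revert h1
  decide +kernel

/-- Four elementary matrices generate. -/
theorem eq_top_of_mem (R : Subgroup SL3) (h12 : e12 ∈ R) (h13 : e13 ∈ R) (h23 : e23 ∈ R)
    (h31 : e31 ∈ R) : R = ⊤ := by
  by_contra hne
  have : IsSimpleGroup SL3 := isSimple_SL3
  have h2 := Cfsg.Agent.Lib.SmallGroups.two_mul_card_dvd_factorial_index not_comm_SL3 R hne
  rw [card_SL3] at h2
  have : Fact (Nat.Prime 2) := ⟨by norm_num⟩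
  have : Fact (Nat.Prime 3) := ⟨by norm_num⟩
  have : Fact (Nat.Prime 13) := ⟨by norm_num⟩
  have o13 : orderOf (e12 * e31 * e23) = 13 :=
    orderOf_eq_prime (by decide +kernel) (by decide +kernel)
  have o8 : orderOf (e12 * e23 * e31) = 2 ^ (2 + 1) :=
    orderOf_eq_prime_pow (by decide +kernel) (by decide +kernel)
  have d13 : 13 ∣ Nat.card R := by
    have := orderOf_dvd_natCard (⟨e12 * e31 * e23, R.mul_mem (R.mul_mem h12 h31) h23⟩ : R)
    rwa [Subgroup.orderOf_mk, o13] at this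
  have d8 : 8 ∣ Nat.card R := by
    have := orderOf_dvd_natCard (⟨e12 * e23 * e31, R.mul_mem (R.mul_mem h12 h23) h31⟩ : R)
    rwa [Subgroup.orderOf_mk, o8] at this
  have d9 : 9 ∣ Nat.card R := by
    apply nine_dvd (⟨e12, h12⟩ : R) (⟨e13, h13⟩ : R)
    · rw [Subgroup.orderOf_mk]
      exact orderOf_eq_prime (by decide +kernel) (by decide +kernel)
    · rw [Subgroup.orderOf_mk]
      exact orderOf_eq_prime (by decide +kernel) (by decide +kernel)
    · apply Subtype.ext
      show e12 * e13 = e13 * e12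
      decide +kernel
    · intro k hk
      have h3 : e13 = e12 ^ k := congrArg Subtype.val hk
      have h4 : e12 ^ 3 = 1 := by decide +kernel
      rw [pow_eq_pow_mod k h4] at h3
      have h5 : k % 3 < 3 := Nat.mod_lt _ (by norm_num)
      generalize k % 3 = m at h3 h5
      revert h3
      interval_cases m <;> decide +kernel
  have d936 : 936 ∣ Nat.card R := by
    have h72 : 72 ∣ Nat.card R := Nat.Coprime.mul_dvd_of_dvd_of_dvd (by norm_num : Nat.Coprime 8 9) d8 d9
    exact Nat.Coprime.mul_dvd_of_dvd_of_dvd (by norm_num : Nat.Coprime 72 13) h72 d13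
  obtain ⟨c, hc⟩ := d936
  have h3 := R.card_mul_index
  rw [card_SL3, hc] at h3
  have h4 : c * R.index = 6 := by nlinarith
  have h5 : R.index ≤ 6 := by
    have : R.index ∣ 6 := ⟨c, by rw [← h4]; ring⟩
    exact Nat.le_of_dvd (by norm_num) this
  have h6 : R.index.factorial ∣ Nat.factorial 6 := Nat.factorial_dvd_factorial h5
  have h7 : 2 * 5616 ∣ Nat.factorial 6 := dvd_trans h2 h6
  revert h7
  decide

end SL3

section main

open Cfsg.Agent.Lib.Psl33Data

variable {G G' : Type*} [Group G] [Group G']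

theorem StRel.prod {a b c d e f : G} {a' b' c' d' e' f' : G'} (h : StRel a b c d e f)
    (h' : StRel a' b' c' d' e' f') :
    StRel (a, a') (b, b') (c, c') (d, d') (e, e') (f, f') where
  p12 := Prod.ext h.p12 h'.p12
  p13 := Prod.ext h.p13 h'.p13
  p23 := Prod.ext h.p23 h'.p23
  p21 := Prod.ext h.p21 h'.p21
  p31 := Prod.ext h.p31 h'.p31
  p32 := Prod.ext h.p32 h'.p32
  c1 := Prod.ext h.c1 h'.c1
  c2 := Prod.ext h.c2 h'.c2
  c3 := Prod.ext h.c3 h'.c3
  c4 := Prod.ext h.c4 h'.c4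
  c5 := Prod.ext h.c5 h'.c5
  c6 := Prod.ext h.c6 h'.c6
  s1 := Prod.ext h.s1 h'.s1
  s2 := Prod.ext h.s2 h'.s2
  s3 := Prod.ext h.s3 h'.s3
  s4 := Prod.ext h.s4 h'.s4
  s5 := Prod.ext h.s5 h'.s5
  s6 := Prod.ext h.s6 h'.s6

theorem StRel.sub {a b c d e f : G} (h : StRel a b c d e f) (K : Subgroup G) (ha : a ∈ K) (hb : b ∈ K)
    (hc : c ∈ K) (hd : d ∈ K) (he : e ∈ K) (hf : f ∈ K) :
    StRel (⟨a, ha⟩ : K) ⟨b, hb⟩ ⟨c, hc⟩ ⟨d, hd⟩ ⟨e, he⟩ ⟨f, hf⟩ where
  p12 := Subtype.ext h.p12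
  p13 := Subtype.ext h.p13
  p23 := Subtype.ext h.p23
  p21 := Subtype.ext h.p21
  p31 := Subtype.ext h.p31
  p32 := Subtype.ext h.p32
  c1 := Subtype.ext h.c1
  c2 := Subtype.ext h.c2
  c3 := Subtype.ext h.c3
  c4 := Subtype.ext h.c4
  c5 := Subtype.ext h.c5
  c6 := Subtype.ext h.c6
  s1 := Subtype.ext h.s1
  s2 := Subtype.ext h.s2
  s3 := Subtype.ext h.s3
  s4 := Subtype.ext h.s4
  s5 := Subtype.ext h.s5
  s6 := Subtype.ext h.s6

/-- Recognition of `SL₃(3)` from the Steinberg relations. -/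
theorem exists_equiv_of_rel [Finite G] (hcard : Nat.card G = 5616) {a b c d e f : G}
    (h : StRel a b c d e f) (hne : a ≠ 1) : Nonempty (G ≃* SL3) := by
  classical
  have hP := h.prod stRel_SL3
  let A : G × SL3 := (a, e12)
  let B : G × SL3 := (b, e13)
  let C : G × SL3 := (c, e23)
  let D : G × SL3 := (d, e21)
  let E : G × SL3 := (e, e31)
  let F : G × SL3 := (f, e32)
  let k : Set (G × SL3) := Set.range (fun i : Fin 6 => lett A B C D E F i)
  let K : Subgroup (G × SL3) := Subgroup.closure k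
  have hA : A ∈ K := Subgroup.subset_closure ⟨0, rfl⟩
  have hB : B ∈ K := Subgroup.subset_closure ⟨1, rfl⟩
  have hC : C ∈ K := Subgroup.subset_closure ⟨2, rfl⟩
  have hD : D ∈ K := Subgroup.subset_closure ⟨3, rfl⟩
  have hE : E ∈ K := Subgroup.subset_closure ⟨4, rfl⟩
  have hF : F ∈ K := Subgroup.subset_closure ⟨5, rfl⟩
  have hK := StRel.sub hP K hA hB hC hD hE hF
  have hgen : Subgroup.closure (Set.range (fun i : Fin 6 =>
      lett (⟨A, hA⟩ : K) ⟨B, hB⟩ ⟨C, hC⟩ ⟨D, hD⟩ ⟨E, hE⟩ ⟨F, hF⟩ i)) = ⊤ := by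
    rw [eq_top_iff, ← Subgroup.closure_closure_coe_preimage (k := k)]
    apply Subgroup.closure_mono
    rintro ⟨x, hx⟩ hx'
    obtain ⟨i, hi⟩ := hx'
    refine ⟨i, ?_⟩
    apply Subtype.ext
    rw [← hi]
    fin_cases i <;> rfl
  have hle := card_le_5616 hK hgen
  let π₂ : K →* SL3 := (MonoidHom.snd G SL3).comp K.subtype
  have hR : π₂.range = ⊤ := by
    apply eq_top_of_mem
    · exact ⟨⟨A, hA⟩, rfl⟩
    · exact ⟨⟨B, hB⟩, rfl⟩
    · exact ⟨⟨C, hC⟩, rfl⟩
    · exact ⟨⟨E, hE⟩, rfl⟩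
  have hs : Function.Surjective π₂ := MonoidHom.range_eq_top.1 hR
  have hb₂ : Function.Bijective π₂ := by
    apply hs.bijective_of_nat_card_le
    rw [card_SL3]
    exact hle
  let ε : K ≃* SL3 := MulEquiv.ofBijective π₂ hb₂
  let ψ : SL3 →* G := ((MonoidHom.fst G SL3).comp K.subtype).comp ε.symm.toMonoidHom
  have hψ : ψ e12 = a := by
    have h1 : ε.symm e12 = ⟨A, hA⟩ := by
      rw [MulEquiv.symm_apply_eq]
      rfl
    show ((ε.symm e12 : K) : G × SL3).1 = a
    rw [h1]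
  have : IsSimpleGroup SL3 := isSimple_SL3
  have hinj : Function.Injective ψ := by
    rw [injective_iff_map_eq_one]
    rcases IsSimpleGroup.eq_bot_or_eq_top_of_normal ψ.ker inferInstance with hk | hk
    · intro x hx
      have : x ∈ ψ.ker := hx
      rwa [hk] at this
    · exfalso
      have : e12 ∈ ψ.ker := by rw [hk]; trivial
      rw [MonoidHom.mem_ker, hψ] at this
      exact hne this
  have hb : Function.Bijective ψ := by
    rw [Nat.bijective_iff_injective_and_card]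
    exact ⟨hinj, by rw [card_SL3, hcard]⟩
  exact ⟨(MulEquiv.ofBijective ψ hb).symm⟩

end main

end Cfsg.Agent.Lib.L33Pres
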