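import Mathlib
import Cfsg.Agent.Lib.GL23Group
import Cfsg.Agent.Lib.BSWGroup
import Cfsg.Prelude.Def_Transfer

/-!
# Involutions with centralizer `GL(2,3)` in a group without quotients of order two: simplicity
-/

set_option autoImplicit false
set_option linter.unusedVariables false
set_option linter.unusedSectionVars false
set_option maxRecDepth 100000

namespace Cfsg.Agent.Lib.L33Simple

open Subgroup Cfsg.Agent.Lib.GL23Dec Cfsg.Agent.Lib.GL23Group
open Cfsg.Agent.Lib.D8CentGroup (perm_inv_card smul_coe_eq_iff)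

theorem sq_prod : ∃ a b : GL23, a ^ 2 = 1 ∧ b ^ 2 = 1 ∧ s ^ 2 = a * b := by decide +kernel

theorem inS_gen : ∀ x : GL23, inS x → ∃ a b : GL23, a ^ 2 = 1 ∧ b ^ 2 = 1 ∧
    (x = a * b ∨ x = s * (a * b)) := by decide +kernel

theorem odd_conj : ∀ x : GL23, x ^ 3 = 1 → x ≠ 1 →
    ∃ g : GL23, (x * (g * x * g⁻¹)) ^ 4 = 1 ∧ x * (g * x * g⁻¹) ≠ 1 := by decide +kernel

theorem pow48 : ∀ x : GL23, x ^ 48 = 1 := by decide +kernel

theorem inv_ex : ∃ d : GL23, d ^ 2 = 1 ∧ d ≠ 1 ∧ d ≠ -1 ∧ (-1 * d) ^ 2 = 1 ∧ -1 * d ≠ 1 := by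
  decide +kernel

section

variable {G : Type*} [Group G] [Finite G]

/-- No nontrivial homomorphism to `±1`. -/
theorem hom_trivial (hO : Cfsg.pResidual 2 G = ⊤) (f : G →* ℤˣ) (g : G) : f g = 1 := by
  have h : Cfsg.pResidual 2 G ≤ f.ker := by
    rw [Cfsg.pResidual, Subgroup.closure_le]
    intro x hx
    have hx' : Nat.Coprime (orderOf x) 2 := hx
    rw [SetLike.mem_coe, MonoidHom.mem_ker]
    have h1 : (f x) ^ (orderOf x) = 1 := by rw [← map_pow, pow_orderOf_eq_one, map_one]
    have h2 : Odd (orderOf x) := by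
      exact Nat.coprime_two_right.1 hx'
    rcases Int.units_eq_one_or (f x) with h3 | h3
    · exact h3
    · rw [h3, h2.neg_one_pow] at h1
      exact absurd h1 (by decide)
  rw [hO] at h
  exact h (mem_top g)

/-- Thompson's transfer in its sign form. -/
theorem exists_conj_mem (hs : ∀ (f : G →* ℤˣ) (g : G), f g = 1) (M : Subgroup G) (k : ℕ) (hk : Odd k)
    (hidx : M.index = 2 * k) (u : G) (hu : u ^ 2 = 1) : ∃ g, g⁻¹ * u * g ∈ M := by
  classical
  by_contra hno
  push Not at hno
  haveI : Fintype (G ⧸ M) := Fintype.ofFinite _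
  let τ : G →* Equiv.Perm (G ⧸ M) := MulAction.toPermHom G (G ⧸ M)
  have hσ : (τ u) ^ 2 = 1 := by rw [← map_pow, hu, map_one]
  have hfree : ∀ x, (τ u) x ≠ x := by
    intro x
    induction x using QuotientGroup.induction_on with
    | H g =>
      intro h
      exact hno g ((smul_coe_eq_iff M u g).mp h)
  obtain ⟨k', hk', hs'⟩ := perm_inv_card (τ u) hσ hfree
  have hc : Fintype.card (G ⧸ M) = M.index := by
    rw [Subgroup.index, Nat.card_eq_fintype_card]
  have hkk : k' = k := by omega
  subst hkk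
  have h1 := hs (Equiv.Perm.sign.comp τ) u
  have h2 : Equiv.Perm.sign (τ u) = 1 := h1
  rw [hs', hk.neg_one_pow] at h2
  exact absurd h2 (by decide)

variable {t : G} (e : centralizer ({t} : Set G) ≃* GL23) (ht : orderOf t = 2)

include e ht in
/-- Every involution is conjugate to `t`. -/
theorem inv_conj_t (hs : ∀ (f : G →* ℤˣ) (g : G), f g = 1) {u : G} (hu2 : u ^ 2 = 1) (hu1 : u ≠ 1) :
    ∃ g, g * t * g⁻¹ = u := by
  classical
  let M : Subgroup G := zpowers (cc e)
  have hMcard : Nat.card M = 8 := by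
    rw [Nat.card_zpowers, orderOf_cc e ht]
  have hmod := card_mod e ht
  have hidx : M.index * 8 = Nat.card G := by
    rw [← hMcard, mul_comm]
    exact Subgroup.card_mul_index M
  obtain ⟨q, hq⟩ : ∃ q, Nat.card G = 16 * (2 * q + 1) := ⟨Nat.card G / 32, by omega⟩
  have hidx2 : M.index = 2 * (2 * q + 1) := by omega
  obtain ⟨g, hg⟩ := exists_conj_mem hs M (2 * q + 1) ⟨q, rfl⟩ hidx2 u hu2
  refine ⟨g, ?_⟩
  have hg' := (mem_zpowers_iff_mem_range_orderOf).mp hg
  rw [orderOf_cc e ht] at hg'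
  obtain ⟨n, hn, hnx⟩ := Finset.mem_image.mp hg'
  have hn8 : n < 8 := Finset.mem_range.mp hn
  have hnx' : g⁻¹ * u * g = inG e (s ^ n) := by
    rw [inG_pow]
    exact hnx.symm
  have h1 : (inG e (s ^ n)) ^ 2 = 1 := by
    rw [← hnx']
    have : (g⁻¹ * u * g) ^ 2 = g⁻¹ * u ^ 2 * g := by simp [pow_two, mul_assoc]
    rw [this, hu2]
    group
  have h2 : inG e (s ^ n) ≠ 1 := by
    rw [← hnx']
    intro h
    apply hu1
    have : u = g * (g⁻¹ * u * g) * g⁻¹ := by group
    rw [this, h]
    group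
  have h3 : (s ^ n) ^ 2 = 1 := by
    apply inG_inj e
    rw [inG_pow, h1, inG_one]
  have h4 : s ^ n ≠ 1 := by
    rintro h
    apply h2
    rw [h, inG_one]
  have h5 := powers_s ⟨n, hn8⟩ h3 h4
  simp only at h5
  rw [h5, inG_neg_one e ht] at hnx'
  rw [← hnx']
  group

include e ht in
/-- The Sylow subgroup. -/
theorem exists_sylow : ∃ S : Sylow 2 G, (S : Subgroup G) = SG e := by
  have : Fact (Nat.Prime 2) := ⟨Nat.prime_two⟩
  have hc := card_SG e
  have hp : IsPGroup 2 (SG e) := IsPGroup.of_card (n := 4) hc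
  obtain ⟨S, hS⟩ := hp.exists_le_sylow
  refine ⟨S, (Subgroup.eq_of_le_of_card_ge hS ?_).symm⟩
  rw [hc]
  obtain ⟨k, hk⟩ := IsPGroup.iff_card.mp S.isPGroup'
  rw [hk]
  have hd : 2 ^ k ∣ Nat.card G := by
    rw [← hk]
    exact Subgroup.card_subgroup_dvd_card _
  obtain ⟨q, hq⟩ : ∃ q, Nat.card G = 16 * (2 * q + 1) := ⟨Nat.card G / 32, by
    have := card_mod e ht
    omega⟩
  rw [hq, show (16 : ℕ) = 2 ^ 4 by norm_num] at hd
  have hcop : Nat.Coprime (2 ^ k) (2 * q + 1) := by
    apply Nat.Coprime.pow_left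
    simp
  have := hcop.dvd_of_dvd_mul_right hd
  exact Nat.le_of_dvd (by norm_num) (by simpa using this)

include e ht in
/-- A normal subgroup containing an involution is everything. -/
theorem eq_top_of_invol (hs : ∀ (f : G →* ℤˣ) (g : G), f g = 1) (N : Subgroup G) [hN : N.Normal]
    {x : G} (hx : x ∈ N) (hx2 : x ^ 2 = 1) (hx1 : x ≠ 1) : N = ⊤ := by
  classical
  have : Fact (Nat.Prime 2) := ⟨Nat.prime_two⟩
  have hmem : ∀ {u : G}, u ^ 2 = 1 → u ∈ N := by
    intro u h1
    by_cases h2 : u = 1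
    · rw [h2]; exact N.one_mem
    obtain ⟨g₁, hg₁⟩ := inv_conj_t e ht hs hx2 hx1
    obtain ⟨g₂, hg₂⟩ := inv_conj_t e ht hs h1 h2
    have : u = (g₂ * g₁⁻¹) * x * (g₂ * g₁⁻¹)⁻¹ := by
      rw [← hg₁, ← hg₂]; group
    rw [this]
    exact hN.conj_mem _ hx _
  have hmem2 : ∀ {a b : GL23}, a ^ 2 = 1 → b ^ 2 = 1 → inG e (a * b) ∈ N := by
    intro a b ha hb
    rw [inG_mul]
    apply N.mul_mem
    · apply hmem
      rw [← inG_pow, ha, inG_one]
    · apply hmem
      rw [← inG_pow, hb, inG_one]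
  set c : G := cc e with hc
  have hc2 : c ^ 2 ∈ N := by
    obtain ⟨a, b, ha, hb, hab⟩ := sq_prod
    have h1 : c ^ 2 = inG e (a * b) := by
      rw [hc, cc, ← inG_pow, hab]
    rw [h1]
    exact hmem2 ha hb
  have hT : ∀ y ∈ SG e, y ∈ N ∨ c⁻¹ * y ∈ N := by
    intro y hy
    obtain ⟨z, hz, rfl⟩ := (mem_SG e).1 hy
    obtain ⟨a, b, ha, hb, h⟩ := inS_gen z hz
    rcases h with h | h
    · left
      rw [h]
      exact hmem2 ha hb
    · right
      have h1 : c⁻¹ * inG e z = inG e (a * b) := by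
        rw [h, inG_mul, hc, cc]
        group
      rw [h1]
      exact hmem2 ha hb
  by_cases hcN : c ∈ N
  · obtain ⟨S, hS⟩ := exists_sylow e ht
    have hle : SG e ≤ N := by
      intro y hy
      rcases hT y hy with h | h
      · exact h
      · have : y = c * (c⁻¹ * y) := by group
        rw [this]
        exact N.mul_mem hcN h
    have h3 : normalizer ((S : Subgroup G) : Set G) ⊔ N = ⊤ := S.normalizer_sup_eq_top' (N := N) (by
      show (S : Subgroup G) ≤ N
      rw [hS]; exact hle)
    have h4 : normalizer ((S : Subgroup G) : Set G) ≤ N := by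
      rw [hS]
      exact (normalizer_SG_le e ht).trans hle
    rw [sup_of_le_right h4] at h3
    exact h3
  · exfalso
    -- the sign of the coset action
    let H : Subgroup G := N ⊔ zpowers c
    have hTH : SG e ≤ H := by
      intro y hy
      rcases hT y hy with h | h
      · exact (le_sup_left : N ≤ H) h
      · have : y = c * (c⁻¹ * y) := by group
        rw [this]
        exact H.mul_mem ((le_sup_right : zpowers c ≤ H) (mem_zpowers c)) ((le_sup_left : N ≤ H) h)
    obtain ⟨q, hq⟩ : ∃ q, Nat.card G = 16 * (2 * q + 1) := ⟨Nat.card G / 32, by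
      have := card_mod e ht
      omega⟩
    have hTi : (SG e).index = 2 * q + 1 := by
      have h1 := Subgroup.card_mul_index (SG e)
      rw [card_SG e, hq] at h1
      omega
    have hHodd : Odd H.index := by
      have h1 : H.index ∣ (SG e).index := Subgroup.index_dvd_of_le hTH
      rw [hTi] at h1
      exact Odd.of_dvd_nat ⟨q, rfl⟩ h1
    have hrel : N.relIndex H = 2 := by
      show N.relIndex (N ⊔ zpowers c) = 2
      rw [Subgroup.relIndex_sup_left]
      show (N.subgroupOf (zpowers c)).index = 2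
      rw [Subgroup.index_eq_two_iff]
      refine ⟨⟨c, mem_zpowers c⟩, ?_⟩
      rintro ⟨b, hb⟩
      obtain ⟨k, rfl⟩ := mem_zpowers_iff.1 hb
      have hz : ∀ m : ℤ, c ^ (2 * m) ∈ N := by
        intro m
        rw [zpow_mul]
        have : c ^ (2 : ℤ) = c ^ 2 := by norm_cast
        rw [this]
        exact N.zpow_mem hc2 m
      rcases Int.even_or_odd' k with ⟨m, rfl | rfl⟩
      · right
        refine ⟨Subgroup.mem_subgroupOf.2 (hz m), ?_⟩
        rw [Subgroup.mem_subgroupOf]
        show ¬ (c ^ (2 * m) * c ∈ N)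
        intro h
        apply hcN
        have : c = (c ^ (2 * m))⁻¹ * (c ^ (2 * m) * c) := by group
        rw [this]
        exact N.mul_mem (N.inv_mem (hz m)) h
      · left
        constructor
        · rw [Subgroup.mem_subgroupOf]
          show c ^ (2 * m + 1) * c ∈ N
          have : c ^ (2 * m + 1) * c = c ^ (2 * (m + 1)) := by
            rw [← zpow_add_one]
            congr 1
            ring
          rw [this]
          exact hz _
        · rw [Subgroup.mem_subgroupOf]
          show ¬ (c ^ (2 * m + 1) ∈ N)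
          intro h
          apply hcN
          have : c = (c ^ (2 * m))⁻¹ * c ^ (2 * m + 1) := by
            rw [zpow_add_one]
            group
          rw [this]
          exact N.mul_mem (N.inv_mem (hz m)) h
    have hidx : N.index = 2 * H.index := by
      rw [← Subgroup.relIndex_mul_index (le_sup_left : N ≤ H), hrel]
    haveI : Fintype (G ⧸ N) := Fintype.ofFinite _
    let τ : G →* Equiv.Perm (G ⧸ N) := MulAction.toPermHom G (G ⧸ N)
    have hσ : (τ c) ^ 2 = 1 := by
      rw [← map_pow]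
      apply Equiv.ext
      intro y
      induction y using QuotientGroup.induction_on with
      | H g =>
        exact (smul_coe_eq_iff N (c ^ 2) g).2 (by
          have := hN.conj_mem _ hc2 g⁻¹
          simpa using this)
    have hfree : ∀ y, (τ c) y ≠ y := by
      intro y
      induction y using QuotientGroup.induction_on with
      | H g =>
        intro h
        have h1 := (smul_coe_eq_iff N c g).mp h
        apply hcN
        have := hN.conj_mem _ h1 g
        have h2 : g * (g⁻¹ * c * g) * g⁻¹ = c := by group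
        rwa [h2] at this
    obtain ⟨k', hk', hs'⟩ := perm_inv_card (τ c) hσ hfree
    have hcc : Fintype.card (G ⧸ N) = N.index := by
      rw [Subgroup.index, Nat.card_eq_fintype_card]
    have hkk : k' = H.index := by omega
    subst hkk
    have h1 := hs (Equiv.Perm.sign.comp τ) c
    have h2 : Equiv.Perm.sign (τ c) = 1 := h1
    rw [hs', hHodd.neg_one_pow] at h2
    exact absurd h2 (by decide)

include e ht in
/-- A normal subgroup of odd order is trivial. -/
theorem eq_bot_of_odd (hs : ∀ (f : G →* ℤˣ) (g : G), f g = 1) (N : Subgroup G) [hN : N.Normal]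
    (hodd : Odd (Nat.card N)) : N = ⊥ := by
  have hcop4 : Nat.Coprime 4 (Nat.card N) := by
    have : Nat.Coprime (2 ^ 2) (Nat.card N) := Nat.Coprime.pow_left 2 hodd.coprime_two_left
    simpa using this
  have hpow : ∀ y ∈ N, orderOf y ∣ Nat.card N := by
    intro y hy
    have := orderOf_dvd_natCard (⟨y, hy⟩ : N)
    rwa [Subgroup.orderOf_mk] at this
  have h4 : ∀ y ∈ N, y ^ 4 = 1 → y = 1 := by
    intro y hy h
    exact orderOf_eq_one_iff.1 (Nat.eq_one_of_dvd_coprimes hcop4 (orderOf_dvd_of_pow_eq_one h) (hpow y hy))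
  have hfix0 : ∀ y ∈ N, y * t = t * y → y = 1 := by
    intro y hy hyt
    obtain ⟨x, rfl⟩ := exists_inG e (mem_centralizer_singleton_iff.2 hyt)
    have h48 : (inG e x) ^ 48 = 1 := by rw [← inG_pow, pow48, inG_one]
    have hd1 : orderOf (inG e x) ∣ 48 := orderOf_dvd_of_pow_eq_one h48
    have hd2 := hpow _ hy
    have hd3 : orderOf (inG e x) ∣ 3 := by
      have hcop16 : Nat.Coprime (orderOf (inG e x)) 16 := by
        have h16 : Nat.Coprime 16 (Nat.card N) := by
          have : Nat.Coprime (2 ^ 4) (Nat.card N) := Nat.Coprime.pow_left 4 hodd.coprime_two_left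
          simpa using this
        exact (Nat.Coprime.coprime_dvd_right hd2 h16).symm
      have : (48 : ℕ) = 16 * 3 := by norm_num
      rw [this] at hd1
      exact hcop16.dvd_of_dvd_mul_left hd1
    have hx3 : x ^ 3 = 1 := by
      apply inG_inj e
      rw [inG_pow, inG_one]
      exact orderOf_dvd_iff_pow_eq_one.1 hd3
    by_contra hne
    have hx1 : x ≠ 1 := by
      rintro rfl
      exact hne (inG_one e)
    obtain ⟨g, hg1, hg2⟩ := odd_conj x hx3 hx1
    have hmem : inG e (x * (g * x * g⁻¹)) ∈ N := by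
      rw [inG_mul, inG_mul, inG_mul, inG_inv]
      exact N.mul_mem hy (hN.conj_mem _ hy _)
    have h5 := h4 _ hmem (by rw [← inG_pow, hg1, inG_one])
    exact hg2 (inG_inj e (by rw [h5, inG_one]))
  have hfix : ∀ (g : G), ∀ y ∈ N, y * (g * t * g⁻¹) = (g * t * g⁻¹) * y → y = 1 := by
    intro g y hy hyu
    have h1 : (g⁻¹ * y * g) * t = t * (g⁻¹ * y * g) := by
      calc (g⁻¹ * y * g) * t = g⁻¹ * (y * (g * t * g⁻¹)) * g := by group
        _ = g⁻¹ * ((g * t * g⁻¹) * y) * g := by rw [hyu]
        _ = t * (g⁻¹ * y * g) := by group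
    have h2 := hfix0 _ (by
      have := hN.conj_mem y hy g⁻¹
      simpa using this) h1
    calc y = g * (g⁻¹ * y * g) * g⁻¹ := by group
      _ = 1 := by rw [h2]; group
  have hinv : ∀ {u : G}, u ^ 2 = 1 → u ≠ 1 → ∀ x ∈ N, u * x * u⁻¹ = x⁻¹ := by
    intro u hu2 hu1 x hx
    obtain ⟨g, rfl⟩ := inv_conj_t e ht hs hu2 hu1
    refine Cfsg.Agent.Lib.BSW.fpf_inverts N (by rw [← pow_two]; exact hu2)
      (fun a ha => hN.conj_mem a ha _) (fun y hy h => hfix g y hy ?_) x hx
    calc y * (g * t * g⁻¹) = (g * t * g⁻¹) * y * (g * t * g⁻¹)⁻¹ * (g * t * g⁻¹) := by rw [h]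
      _ = (g * t * g⁻¹) * y := by group
  obtain ⟨d, hd2, hd1, hdm, hd3, hd4⟩ := inv_ex
  rw [Subgroup.eq_bot_iff_forall]
  intro x hx
  have ht2 := t_sq ht
  have h1 := hinv ht2 (t_ne_one ht) x hx
  have h2 := hinv (u := inG e d) (by rw [← inG_pow, hd2, inG_one]) (by
    rw [Ne, inG_eq_one_iff]; exact hd1) x hx
  have h3 := hinv (u := inG e (-1 * d)) (by rw [← inG_pow, hd3, inG_one]) (by
    rw [Ne, inG_eq_one_iff]; exact hd4) x hx
  rw [inG_mul, inG_neg_one e ht] at h3
  have h5 : x = x⁻¹ := by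
    calc x = (t * x * t⁻¹)⁻¹ := by rw [h1, inv_inv]
      _ = t * x⁻¹ * t⁻¹ := by group
      _ = t * (inG e d * x * (inG e d)⁻¹) * t⁻¹ := by rw [h2]
      _ = t * inG e d * x * (t * inG e d)⁻¹ := by group
      _ = x⁻¹ := h3
  apply h4 x hx
  have h6 : x ^ 2 = 1 := by
    rw [pow_two]
    nth_rewrite 2 [h5]
    exact mul_inv_cancel x
  rw [show (4 : ℕ) = 2 * 2 by norm_num, pow_mul, h6, one_pow]

include e ht in
/-- The group is simple. -/
theorem isSimple (hs : ∀ (f : G →* ℤˣ) (g : G), f g = 1) : IsSimpleGroup G := by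
  have : Nontrivial G := ⟨⟨t, 1, t_ne_one ht⟩⟩
  refine ⟨?_⟩
  intro N hN
  by_cases hodd : Odd (Nat.card N)
  · left
    exact eq_bot_of_odd e ht hs N hodd
  · right
    have heven : 2 ∣ Nat.card N := by
      rw [← even_iff_two_dvd]
      exact Nat.not_odd_iff_even.mp hodd
    have : Fact (Nat.Prime 2) := ⟨Nat.prime_two⟩
    obtain ⟨x, hx⟩ := exists_prime_orderOf_dvd_card' (G := N) 2 heven
    have hu2 : (x : G) ^ 2 = 1 := by
      have := pow_orderOf_eq_one x
      rw [hx] at this
      exact congrArg Subtype.val this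
    have hu1 : (x : G) ≠ 1 := by
      intro h
      have : x = 1 := Subtype.ext h
      rw [this, orderOf_one] at hx
      omega
    exact eq_top_of_invol e ht hs N x.2 hu2 hu1

end

end Cfsg.Agent.Lib.L33Simple
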