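import Mathlib
import Cfsg.Agent.Lib.CoprimeAct
import Cfsg.Prelude.Def_Transfer

/-!
# Central extensions by elementary abelian `2`-groups: lifting a subgroup on which a complement acts transitively
-/

set_option autoImplicit false
set_option linter.style.haveILetI false
set_option linter.unusedSectionVars false
set_option linter.unusedVariables false

namespace Cfsg.Agent.Lib.L34CovAbs

variable {X L : Type*} [Group X] [Group L]

/-- A subgroup `A` of `L` with complement `C` in its normalizer, `C` transitive on `A#`, and a subgroup `E` of `C`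
of odd index whose elements are conjugate into `A`. -/
structure Good (A C E : Subgroup L) : Prop where
  sq : ∀ x ∈ A, x * x = 1
  trans : ∃ x₀ ∈ A, ∀ x ∈ A, x ≠ 1 → ∃ c ∈ C, c * x * c⁻¹ = x₀
  three : ∃ x y w, x ∈ A ∧ y ∈ A ∧ w ∈ A ∧ x ≠ 1 ∧ y ≠ 1 ∧ w ≠ 1 ∧ y * w ≠ 1 ∧ x ≠ y ∧ x ≠ w ∧ x ≠ y * w
  norm : ∀ c ∈ C, ∀ x ∈ A, c * x * c⁻¹ ∈ A
  dec : ∀ g, (∀ x ∈ A, g * x * g⁻¹ ∈ A) → ∃ c ∈ C, ∃ a ∈ A, g = c * a
  disj : ∀ x ∈ A, x ∈ C → x = 1
  EC : E ≤ C
  odd : Odd (E.relIndex C)
  conj : ∀ e ∈ E, ∃ g, g * e * g⁻¹ ∈ A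

section

variable (π : X →* L) (hs : Function.Surjective π) (hk : π.ker = Subgroup.center X)
  (hZ : ∀ z ∈ Subgroup.center X, z * z = 1)
include hs hk hZ

theorem central_of_ker {z : X} (hz : π z = 1) (g : X) : z * g = g * z := by
  have : z ∈ Subgroup.center X := by rw [← hk]; exact hz
  exact (Subgroup.mem_center_iff.mp this g).symm

theorem ker_sq {z : X} (hz : π z = 1) : z * z = 1 := by
  have : z ∈ Subgroup.center X := by rw [← hk]; exact hz
  exact hZ z this

theorem sq_lift {A C E : Subgroup L} (hG : Good A C E) (h : X) (hA : π h ∈ A) : h * h = 1 := by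
  have hcen : ∀ {z : X}, π z = 1 → ∀ g, z * g = g * z := fun hz g => central_of_ker π hs hk hZ hz g
  have hzs : ∀ {z : X}, π z = 1 → z * z = 1 := fun hz => ker_sq π hs hk hZ hz
  obtain ⟨x₀, hx₀, htr⟩ := hG.trans
  obtain ⟨h₀, rfl⟩ := hs x₀
  have hsq : ∀ u, π u ∈ A → π (u * u) = 1 := by
    intro u hu
    rw [map_mul]
    exact hG.sq _ hu
  set q := h₀ * h₀ with hqdef
  have hq1 : π q = 1 := hsq h₀ hx₀
  have hqq : q * q = 1 := hzs hq1
  have hq : ∀ u, π u ∈ A → π u ≠ 1 → u * u = q := by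
    intro u hu hne
    obtain ⟨c, hc, hcc⟩ := htr (π u) hu hne
    obtain ⟨d, rfl⟩ := hs c
    have hz : π (d * u * d⁻¹ * h₀⁻¹) = 1 := by
      rw [map_mul, map_mul, map_mul, map_inv, map_inv, hcc, mul_inv_cancel]
    have hz2 := hzs hz
    set z := d * u * d⁻¹ * h₀⁻¹ with hzdef
    have e1 : d * u * d⁻¹ = z * h₀ := by rw [hzdef]; group
    have e2 : (d * u * d⁻¹) * (d * u * d⁻¹) = u * u := by
      have : (d * u * d⁻¹) * (d * u * d⁻¹) = d * (u * u) * d⁻¹ := by group
      rw [this, ← hcen (hsq u hu) d]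
      group
    rw [← e2, e1]
    calc z * h₀ * (z * h₀) = z * (h₀ * z) * h₀ := by group
      _ = z * (z * h₀) * h₀ := by rw [hcen hz h₀]
      _ = (z * z) * (h₀ * h₀) := by group
      _ = q := by rw [hz2, one_mul]
  have key : ∀ u v, π u ∈ A → π v ∈ A → π u ≠ 1 → π v ≠ 1 → π u ≠ π v → u * v = q * (v * u) := by
    intro u v hu hv hu1 hv1 huv
    have h1 : π (u * v) ≠ 1 := by
      rw [map_mul]
      intro h
      apply huv
      have h2 := hG.sq _ hv
      calc π u = π u * (π v * π v) := by rw [h2, mul_one]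
        _ = (π u * π v) * π v := by group
        _ = π v := by rw [h, one_mul]
    have h2 : (u * v) * (u * v) = q := hq _ (by rw [map_mul]; exact A.mul_mem hu hv) h1
    have h3 := hq u hu hu1
    have h4 := hq v hv hv1
    have h5 : v⁻¹ = q * v := by
      rw [inv_eq_iff_mul_eq_one]
      calc v * (q * v) = (v * q) * v := by group
        _ = (q * v) * v := by rw [hcen hq1 v]
        _ = q * (v * v) := by group
        _ = 1 := by rw [h4, hqq]
    have h6 : u⁻¹ = q * u := by
      rw [inv_eq_iff_mul_eq_one]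
      calc u * (q * u) = (u * q) * u := by group
        _ = (q * u) * u := by rw [hcen hq1 u]
        _ = q * (u * u) := by group
        _ = 1 := by rw [h3, hqq]
    have h7 : u * v = q * (v⁻¹ * u⁻¹) := by
      rw [← h2]
      group
    rw [h7, h5, h6]
    calc q * (q * v * (q * u)) = (q * q) * (v * (q * u)) := by group
      _ = v * (q * u) := by rw [hqq, one_mul]
      _ = (v * q) * u := by group
      _ = (q * v) * u := by rw [hcen hq1 v]
      _ = q * (v * u) := by group
  have hq1' : q = 1 := by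
    obtain ⟨x, y, w, hx, hy, hw, hx1, hy1, hw1, hyw, hxy, hxw, hxyw⟩ := hG.three
    obtain ⟨a, rfl⟩ := hs x
    obtain ⟨b, rfl⟩ := hs y
    obtain ⟨d, rfl⟩ := hs w
    have k1 := key a b hx hy hx1 hy1 hxy
    have k2 := key a d hx hw hx1 hw1 hxw
    have k3 := key a (b * d) hx (by rw [map_mul]; exact A.mul_mem hy hw) hx1
      (by rw [map_mul]; exact hyw) (by rw [map_mul]; exact hxyw)
    have k4 : a * (b * d) = b * d * a := by
      calc a * (b * d) = (a * b) * d := by group
        _ = q * (b * a) * d := by rw [k1]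
        _ = q * b * (a * d) := by group
        _ = q * b * (q * (d * a)) := by rw [k2]
        _ = q * (b * q) * (d * a) := by group
        _ = q * (q * b) * (d * a) := by rw [hcen hq1 b]
        _ = (q * q) * (b * (d * a)) := by group
        _ = b * d * a := by rw [hqq, one_mul]; group
    rw [k4] at k3
    have k5 : q * (b * d * a) = 1 * (b * d * a) := by rw [← k3, one_mul]
    exact mul_right_cancel k5
  by_cases h1 : π h = 1
  · exact hzs h1
  · rw [hq h hA h1, hq1']

end

/-- All squares trivial implies commuting. -/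
theorem comm_of_sq {G : Type*} [Group G] (H : Subgroup G) (h : ∀ x ∈ H, x * x = 1) {a b : G} (ha : a ∈ H) (hb : b ∈ H) :
    a * b = b * a := by
  have h1 : (a * b)⁻¹ = a * b := inv_eq_of_mul_eq_one_left (h _ (H.mul_mem ha hb))
  have h2 : a⁻¹ = a := inv_eq_of_mul_eq_one_left (h _ ha)
  have h3 : b⁻¹ = b := inv_eq_of_mul_eq_one_left (h _ hb)
  rw [← h1, mul_inv_rev, h2, h3]

section compl

variable [Finite X] (π : X →* L) (hs : Function.Surjective π) (hk : π.ker = Subgroup.center X)
  (hZ : ∀ z ∈ Subgroup.center X, z * z = 1)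
include hs hk hZ

/-- A complement in the preimage of `C`. -/
theorem exists_compl {A C E : Subgroup L} (hG : Good A C E) :
    ∃ D : Subgroup X, D ≤ C.comap π ∧ (∀ x ∈ D, π x = 1 → x = 1) ∧ ∀ c ∈ C, ∃ x ∈ D, π x = c := by
  classical
  haveI : Fact (Nat.Prime 2) := ⟨Nat.prime_two⟩
  set W := C.comap π with hW
  set R := E.comap π with hR
  have hRsq : ∀ r ∈ R, r * r = 1 := by
    intro r hr
    obtain ⟨g, hg⟩ := hG.conj (π r) hr
    obtain ⟨d, rfl⟩ := hs g
    have h1 : π (d * r * d⁻¹) ∈ A := by simpa using hg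
    have h2 := sq_lift π hs hk hZ hG _ h1
    have h3 : d * r * d⁻¹ * (d * r * d⁻¹) = d * (r * r) * d⁻¹ := by group
    rw [h3] at h2
    have h4 : d * (r * r) = d := by
      have := congrArg (· * d) h2
      simpa using this
    simpa using h4
  set T := R.subgroupOf W with hT
  have hcomm : ∀ a b : T, a * b = b * a := by
    intro a b
    apply Subtype.ext
    apply Subtype.ext
    exact comm_of_sq R hRsq a.2 b.2
  letI cT : CommGroup T := { (inferInstance : Group T) with mul_comm := hcomm }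
  let ιT : T →* X := W.subtype.comp T.subtype
  let ZT : Subgroup T := (Subgroup.center X).comap ιT
  obtain ⟨f, f1, f2, f3⟩ := Cfsg.Agent.Lib.CoprimeAct.exists_retraction (V := T) 2 (fun v => by
      rw [pow_two]
      apply Subtype.ext
      apply Subtype.ext
      exact hRsq _ v.2) ZT
  letI cZ : CommGroup (Subgroup.center X) := { (inferInstance : Group (Subgroup.center X)) with
    mul_comm := fun a b => Subtype.ext ((Subgroup.mem_center_iff.mp a.2 b).symm) }
  let l : T →* Subgroup.center X := MonoidHom.mk' (fun t => ⟨ιT (f t), f2 t⟩) (by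
    intro a b
    apply Subtype.ext
    show ιT (f (a * b)) = ιT (f a) * ιT (f b)
    rw [f1, map_mul])
  have hidx : T.index = E.relIndex C := by
    have h1 : T.index = R.relIndex W := rfl
    rw [h1, hR, Subgroup.relIndex_comap, hW, Subgroup.map_comap_eq_self_of_surjective hs]
  have hodd : Odd T.index := by rw [hidx]; exact hG.odd
  obtain ⟨m, hm⟩ := hodd
  have hcenW : ∀ (z : W) (hz : (z : X) ∈ Subgroup.center X), l.transfer z = ⟨z, hz⟩ := by
    intro z hz
    have hzc : ∀ g : W, g * z = z * g := by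
      intro g
      apply Subtype.ext
      exact Subgroup.mem_center_iff.mp hz _
    have key : ∀ (k : ℕ) (g₀ : W), g₀⁻¹ * z ^ k * g₀ ∈ T → g₀⁻¹ * z ^ k * g₀ = z ^ k := by
      intro k g₀ _
      have h1 : Commute g₀ z := hzc g₀
      have h2 : Commute g₀ (z ^ k) := h1.pow_right k
      calc g₀⁻¹ * z ^ k * g₀ = g₀⁻¹ * (z ^ k * g₀) := by group
        _ = g₀⁻¹ * (g₀ * z ^ k) := by rw [h2.eq]
        _ = z ^ k := by group
    rw [MonoidHom.transfer_eq_pow l z key]
    have hz2 : z * z = 1 := Subtype.ext (hZ _ hz)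
    have hp : z ^ T.index = z := by
      rw [hm, pow_succ, pow_mul, pow_two, hz2, one_pow, one_mul]
    have hzT : z ∈ T := by
      show (z : X) ∈ R
      show π z ∈ E
      have : π z = 1 := by
        have : (z : X) ∈ π.ker := by rw [hk]; exact hz
        exact this
      rw [this]
      exact E.one_mem
    have h5 : (⟨z ^ T.index, MonoidHom.transfer_eq_pow_aux z key⟩ : T) = ⟨z, hzT⟩ := Subtype.ext hp
    rw [h5]
    apply Subtype.ext
    exact f3 ⟨z, hzT⟩ hz |> congrArg ιT
  refine ⟨(l.transfer).ker.map W.subtype, ?_, ?_, ?_⟩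
  · rintro _ ⟨x, -, rfl⟩
    exact x.2
  · rintro _ ⟨x, hx, rfl⟩ hπ
    have hxc : (x : X) ∈ Subgroup.center X := by rw [← hk]; exact hπ
    have h1 := hcenW x hxc
    rw [MonoidHom.mem_ker.mp hx] at h1
    exact (congrArg Subtype.val h1).symm
  · intro c hc
    obtain ⟨y, rfl⟩ := hs c
    have hy : y ∈ W := hc
    let y' : W := ⟨y, hy⟩
    let zz : Subgroup.center X := l.transfer y'
    have hzz : (zz : X) ∈ W := by
      show π (zz : X) ∈ C
      have : (zz : X) ∈ π.ker := by rw [hk]; exact zz.2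
      rw [MonoidHom.mem_ker.mp this]
      exact C.one_mem
    let z' : W := ⟨zz, hzz⟩
    have h1 : l.transfer z' = zz := hcenW z' zz.2
    refine ⟨((y' * z'⁻¹ : W) : X), ⟨y' * z'⁻¹, ?_, rfl⟩, ?_⟩
    · rw [SetLike.mem_coe, MonoidHom.mem_ker, map_mul, map_inv, h1]
      exact mul_inv_cancel _
    · have : (zz : X) ∈ π.ker := by rw [hk]; exact zz.2
      show π (y * (zz : X)⁻¹) = π y
      rw [map_mul, map_inv, MonoidHom.mem_ker.mp this]
      simp

/-- The abstract conclusion. -/
theorem main {A C E : Subgroup L} (hG : Good A C E) (H : Subgroup X) (hZH : Subgroup.center X ≤ H)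
    (hHA : H.map π = A) :
    (∀ x ∈ H, x * x = 1) ∧ ∃ D : Subgroup X, D ≤ Subgroup.normalizer (H : Set X) ∧ D ⊓ H = ⊥ ∧
      H ⊔ D = Subgroup.normalizer (H : Set X) ∧ Nonempty (↥D ≃* ↥C) := by
  have hHc : H = A.comap π := by
    apply le_antisymm
    · intro x hx
      rw [← hHA]
      exact ⟨x, hx, rfl⟩
    · intro x hx
      have hx' : π x ∈ H.map π := by rw [hHA]; exact hx
      obtain ⟨y, hy, hxy⟩ := hx'
      have h1 : y⁻¹ * x ∈ Subgroup.center X := by
        rw [← hk, MonoidHom.mem_ker, map_mul, map_inv, hxy, inv_mul_cancel]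
      have h2 := H.mul_mem hy (hZH h1)
      simpa using h2
  have hsq : ∀ x ∈ H, x * x = 1 := by
    intro x hx
    rw [hHc] at hx
    exact sq_lift π hs hk hZ hG x hx
  refine ⟨hsq, ?_⟩
  obtain ⟨D, hD1, hD2, hD3⟩ := exists_compl π hs hk hZ hG
  have hnorm : ∀ g, π g ∈ C → g ∈ Subgroup.normalizer (H : Set X) := by
    intro g hg
    rw [Subgroup.mem_normalizer_iff]
    intro h
    rw [hHc, Subgroup.mem_comap, Subgroup.mem_comap]
    constructor
    · intro hh
      simpa using hG.norm _ hg _ hh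
    · intro hh
      have := hG.norm _ (C.inv_mem hg) _ hh
      simpa [mul_assoc] using this
  have hDn : D ≤ Subgroup.normalizer (H : Set X) := fun x hx => hnorm x (hD1 hx)
  refine ⟨D, hDn, ?_, ?_, ?_⟩
  · rw [eq_bot_iff]
    rintro x ⟨hxD, hxH⟩
    have hxH' : π x ∈ A := by
      have : x ∈ H := hxH
      rw [hHc] at this
      exact this
    exact hD2 x hxD (hG.disj _ hxH' (hD1 hxD))
  · apply le_antisymm
    · exact sup_le Subgroup.le_normalizer hDn
    · intro g hg
      have h1 : ∀ x ∈ A, π g * x * (π g)⁻¹ ∈ A := by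
        intro x hx
        obtain ⟨y, rfl⟩ := hs x
        have hy : y ∈ H := by rw [hHc]; exact hx
        have h2 := (Subgroup.mem_normalizer_iff.mp hg y).mp hy
        have h3 : g * y * g⁻¹ ∈ A.comap π := by rw [← hHc]; exact h2
        simpa using h3
      obtain ⟨c, hc, a, ha, hgc⟩ := hG.dec _ h1
      obtain ⟨x, hxD, rfl⟩ := hD3 c hc
      obtain ⟨y, rfl⟩ := hs a
      have hy : y ∈ H := by rw [hHc]; exact ha
      have h2 : (x * y)⁻¹ * g ∈ Subgroup.center X := by
        rw [← hk, MonoidHom.mem_ker, map_mul, map_inv, map_mul, hgc, inv_mul_cancel]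
      have h3 : g = x * (y * ((x * y)⁻¹ * g)) := by group
      rw [h3]
      refine Subgroup.mul_mem _ (Subgroup.mem_sup_right hxD) (Subgroup.mem_sup_left ?_)
      exact H.mul_mem hy (hZH h2)
  · have hmem : ∀ x : D, π x ∈ C := fun x => hD1 x.2
    let φ : D →* C := (π.comp D.subtype).codRestrict C hmem
    refine ⟨MulEquiv.ofBijective φ ⟨?_, ?_⟩⟩
    · rw [injective_iff_map_eq_one]
      intro x hx
      have h1 : π x = 1 := congrArg Subtype.val hx
      exact Subtype.ext (hD2 x x.2 h1)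
    · rintro ⟨c, hc⟩
      obtain ⟨x, hx, hxc⟩ := hD3 c hc
      exact ⟨⟨x, hx⟩, Subtype.ext hxc⟩

end compl

end Cfsg.Agent.Lib.L34CovAbs
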