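import Mathlib
import Cfsg.Agent.Lib.L34CovAbs
import Cfsg.Agent.Lib.PSLFusion
import Cfsg.Agent.Lib.ClassicalSmall

/-!
# `PSL₃(F)`, `|F| = 4`: the two radicals of a Sylow `2`-subgroup and their complements
-/

set_option autoImplicit false
set_option linter.unusedSectionVars false
set_option linter.unusedVariables false
set_option linter.style.haveILetI false

namespace Cfsg.Agent.Lib.L34CovCon

open Matrix Cfsg.Agent.Lib.SLSpec Cfsg.Agent.Lib.L34CovAbs

variable {F : Type*} [Field F]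

local notation "SL3" => Matrix.SpecialLinearGroup (Fin 3) F
local notation "SL2" => Matrix.SpecialLinearGroup (Fin 2) F
local notation "P3" => Matrix.ProjectiveSpecialLinearGroup (Fin 3) F

/-- Upper unitriangular matrices. -/
def uG (a c b : F) : SL3 := ⟨!![1, a, b; 0, 1, c; 0, 0, 1], by simp [Matrix.det_fin_three]⟩

@[simp] theorem uG_val (a c b : F) : (uG a c b).1 = !![1, a, b; 0, 1, c; 0, 0, 1] := rfl

theorem uG_mul (a c b a' c' b' : F) :
    uG a c b * uG a' c' b' = uG (a + a') (c + c') (b + a * c' + b') := by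
  apply Subtype.ext
  show (uG a c b).1 * (uG a' c' b').1 = _
  ext i j
  fin_cases i <;> fin_cases j <;> simp [Matrix.mul_apply, Fin.sum_univ_three] <;> ring

theorem uG_zero : uG (0 : F) 0 0 = 1 := by
  apply Subtype.ext
  ext i j
  fin_cases i <;> fin_cases j <;> simp

theorem proj_eq_iff (A B : SL3) :
    proj A = proj B ↔ ∃ r : F, r ^ 3 = 1 ∧ ∀ i j, B.1 i j = r * A.1 i j := by
  constructor
  · intro h
    have h1 : A⁻¹ * B ∈ Subgroup.center SL3 := by
      rw [← proj_eq_one_iff, map_mul, map_inv, ← h, inv_mul_cancel]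
    obtain ⟨r, hr, hs⟩ := Matrix.SpecialLinearGroup.mem_center_iff.mp h1
    refine ⟨r, by simpa using hr, fun i j => ?_⟩
    have h2 : B = A * (A⁻¹ * B) := by group
    have h3 : B.1 = A.1 * (A⁻¹ * B).1 := by
      conv_lhs => rw [h2]
      rfl
    rw [h3, ← hs]
    simp [Matrix.scalar_apply, Matrix.mul_diagonal, mul_comm]
  · rintro ⟨r, hr, h⟩
    have h1 : ((A⁻¹ * B : SL3) : Matrix (Fin 3) (Fin 3) F) = r • 1 := by
      have h2 : B.1 = r • A.1 := by
        ext i j
        rw [h i j, Matrix.smul_apply, smul_eq_mul]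
      show (A⁻¹ : SL3).1 * B.1 = _
      rw [h2, Matrix.mul_smul]
      have h3 : (A⁻¹ : SL3).1 * A.1 = 1 := by
        have := congrArg Subtype.val (inv_mul_cancel A)
        exact this
      rw [h3]
    have h2 := mem_center_of_scalar _ _ h1
    rw [← proj_eq_one_iff, map_mul, map_inv, inv_mul_eq_one] at h2
    exact h2

theorem uG_inj {a c b a' c' b' : F} (h : proj (uG a c b) = proj (uG a' c' b')) :
    a = a' ∧ c = c' ∧ b = b' := by
  obtain ⟨r, hr, h⟩ := (proj_eq_iff _ _).mp h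
  have h00 := h 0 0
  simp at h00
  subst h00
  have h01 := h 0 1
  have h12 := h 1 2
  have h02 := h 0 2
  simp at h01 h12 h02
  exact ⟨h01.symm, h12.symm, h02.symm⟩

theorem uG_ne_one {a c b : F} (h : a ≠ 0 ∨ c ≠ 0 ∨ b ≠ 0) : proj (uG a c b) ≠ 1 := by
  intro h1
  rw [← map_one proj, ← uG_zero] at h1
  obtain ⟨h2, h3, h4⟩ := uG_inj h1
  rcases h with h | h | h <;> contradiction

variable [Fintype F] [CharP F 2]

local notation "t0" => (CharTwo.two_eq_zero : (2 : F) = 0)

omit [Fintype F] in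
theorem add_self' (a : F) : a + a = 0 := CharTwo.add_self_eq_zero a

/-- The radical of the stabiliser of a point. -/
def Abar : Subgroup P3 where
  carrier := {x | ∃ a b : F, x = proj (uG a 0 b)}
  one_mem' := ⟨0, 0, by rw [uG_zero, map_one]⟩
  mul_mem' := by
    rintro _ _ ⟨a, b, rfl⟩ ⟨a', b', rfl⟩
    refine ⟨a + a', b + b', ?_⟩
    rw [← map_mul, uG_mul]
    simp
  inv_mem' := by
    rintro _ ⟨a, b, rfl⟩
    refine ⟨a, b, ?_⟩
    rw [inv_eq_iff_mul_eq_one, ← map_mul, uG_mul]
    simp [add_self', uG_zero]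

/-- The radical of the stabiliser of a line. -/
def Bbar : Subgroup P3 where
  carrier := {x | ∃ c b : F, x = proj (uG 0 c b)}
  one_mem' := ⟨0, 0, by rw [uG_zero, map_one]⟩
  mul_mem' := by
    rintro _ _ ⟨c, b, rfl⟩ ⟨c', b', rfl⟩
    refine ⟨c + c', b + b', ?_⟩
    rw [← map_mul, uG_mul]
    simp
  inv_mem' := by
    rintro _ ⟨c, b, rfl⟩
    refine ⟨c, b, ?_⟩
    rw [inv_eq_iff_mul_eq_one, ← map_mul, uG_mul]
    simp [add_self', uG_zero]

theorem card_Abar (hF : Fintype.card F = 4) : Nat.card (Abar (F := F)) = 16 := by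
  have hb : Function.Bijective (fun p : F × F => (⟨proj (uG p.1 0 p.2), p.1, p.2, rfl⟩ : Abar (F := F))) := by
    constructor
    · rintro ⟨a, b⟩ ⟨a', b'⟩ h
      have h1 := congrArg Subtype.val h
      obtain ⟨h2, -, h3⟩ := uG_inj h1
      simp only at h2 h3
      rw [h2, h3]
    · rintro ⟨_, a, b, rfl⟩
      exact ⟨(a, b), rfl⟩
  rw [← Nat.card_eq_of_bijective _ hb, Nat.card_prod, Nat.card_eq_fintype_card, hF]

theorem card_Bbar (hF : Fintype.card F = 4) : Nat.card (Bbar (F := F)) = 16 := by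
  have hb : Function.Bijective (fun p : F × F => (⟨proj (uG 0 p.1 p.2), p.1, p.2, rfl⟩ : Bbar (F := F))) := by
    constructor
    · rintro ⟨a, b⟩ ⟨a', b'⟩ h
      have h1 := congrArg Subtype.val h
      obtain ⟨-, h2, h3⟩ := uG_inj h1
      simp only at h2 h3
      rw [h2, h3]
    · rintro ⟨_, a, b, rfl⟩
      exact ⟨(a, b), rfl⟩
  rw [← Nat.card_eq_of_bijective _ hb, Nat.card_prod, Nat.card_eq_fintype_card, hF]

open Cfsg.Agent.Lib.PSLFusion Cfsg.Agent.Lib.PSLFusionBasic in
theorem exists_of_mem_Ubar {y : P3} (hy : y ∈ Ubar F 3) : ∃ a c b : F, y = proj (uG a c b) := by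
  obtain ⟨u, hu, rfl⟩ := hy
  refine ⟨u.1 0 1, u.1 1 2, u.1 0 2, ?_⟩
  congr 1
  apply Subtype.ext
  have hu' : IsUni (u : Matrix (Fin 3) (Fin 3) F) := hu
  ext i j
  fin_cases i <;> fin_cases j <;> simp [hu'.2] <;> first | rfl | exact hu'.1 _ _ (by decide)

open Cfsg.Agent.Lib.PSLFusion Cfsg.Agent.Lib.PSLFusionBasic in
theorem uG_mem_Ubar (a c b : F) : proj (uG a c b) ∈ Ubar F 3 := by
  refine proj_mem_Ubar ?_
  constructor
  · intro i j hij
    fin_cases i <;> fin_cases j <;> first | rfl | exact absurd hij (by decide)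
  · intro i
    fin_cases i <;> rfl

/-- The classification of elementary abelian subgroups of order `16` of `Ubar`. -/
theorem elem_classify (hF : Fintype.card F = 4) (M : Subgroup P3)
    (hM : M ≤ Cfsg.Agent.Lib.PSLFusion.Ubar F 3) (hsq : ∀ x ∈ M, x * x = 1) (hc : Nat.card M = 16) :
    M = Abar ∨ M = Bbar := by
  have hU : ∀ x ∈ M, x ∈ Abar (F := F) ∨ x ∈ Bbar (F := F) := by
    intro x hx
    obtain ⟨a, c, b, rfl⟩ := exists_of_mem_Ubar (hM hx)
    have h1 := hsq _ hx
    rw [← map_mul, uG_mul, add_self', add_self'] at h1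
    have h2 : a * c = 0 := by
      by_contra h
      have h3 : b + a * c + b = a * c := by
        rw [add_right_comm, add_self', zero_add]
      rw [h3] at h1
      exact uG_ne_one (Or.inr (Or.inr h)) h1
    rcases mul_eq_zero.mp h2 with rfl | rfl
    · exact Or.inr ⟨c, b, rfl⟩
    · exact Or.inl ⟨a, b, rfl⟩
  have hle : M ≤ Abar ∨ M ≤ Bbar := by
    by_contra hcon
    push Not at hcon
    obtain ⟨h1, h2⟩ := hcon
    obtain ⟨x, hx, hxA⟩ := SetLike.not_le_iff_exists.mp h1
    obtain ⟨y, hy, hyB⟩ := SetLike.not_le_iff_exists.mp h2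
    have hxB := (hU x hx).resolve_left hxA
    have hyA := (hU y hy).resolve_right hyB
    rcases hU _ (M.mul_mem hx hy) with h | h
    · apply hxA
      have := Abar.mul_mem h (Abar.inv_mem hyA)
      simpa using this
    · apply hyB
      have := Bbar.mul_mem (Bbar.inv_mem hxB) h
      simpa using this
  rcases hle with h | h
  · left
    exact Subgroup.eq_of_le_of_card_ge h (by rw [hc, card_Abar hF])
  · right
    exact Subgroup.eq_of_le_of_card_ge h (by rw [hc, card_Bbar hF])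

/-- An element of `Ubar` commuting with the two radicals lies in both. -/
theorem center_mem {y : P3} (hy : y ∈ Cfsg.Agent.Lib.PSLFusion.Ubar F 3)
    (h1 : y * proj (uG 0 1 0) = proj (uG 0 1 0) * y) (h2 : y * proj (uG 1 0 0) = proj (uG 1 0 0) * y) :
    y ∈ Abar (F := F) ∧ y ∈ Bbar (F := F) := by
  obtain ⟨a, c, b, rfl⟩ := exists_of_mem_Ubar hy
  rw [← map_mul, ← map_mul, uG_mul, uG_mul] at h1 h2
  obtain ⟨-, -, h3⟩ := uG_inj h1
  obtain ⟨-, -, h4⟩ := uG_inj h2
  simp at h3 h4
  subst h3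
  subst h4
  exact ⟨⟨0, b, rfl⟩, ⟨0, b, rfl⟩⟩

end Cfsg.Agent.Lib.L34CovCon
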