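import Mathlib
import Cfsg.Agent.Lib.L34CovCon

/-!
# `PSL₃(F)`, `|F| = 4`: the data for `Good`
-/

set_option autoImplicit false
set_option linter.unusedSectionVars false
set_option linter.unusedVariables false
set_option linter.style.haveILetI false

namespace Cfsg.Agent.Lib.L34CovGood

open Matrix Cfsg.Agent.Lib.SLSpec Cfsg.Agent.Lib.L34CovAbs Cfsg.Agent.Lib.L34CovCon

variable {F : Type*} [Field F]

local notation "SL3" => Matrix.SpecialLinearGroup (Fin 3) F
local notation "SL2" => Matrix.SpecialLinearGroup (Fin 2) F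
local notation "P3" => Matrix.ProjectiveSpecialLinearGroup (Fin 3) F

theorem det2 (m : SL2) : m.1 0 0 * m.1 1 1 - m.1 0 1 * m.1 1 0 = 1 := by
  have := m.2
  rwa [Matrix.det_fin_two] at this

/-- The Levi factor of the point stabiliser. -/
def lA (m : SL2) : SL3 := ⟨!![1, 0, 0; 0, m.1 0 0, m.1 0 1; 0, m.1 1 0, m.1 1 1], by
  simp [Matrix.det_fin_three]
  linear_combination det2 m⟩

/-- The Levi factor of the line stabiliser. -/
def lB (m : SL2) : SL3 := ⟨!![m.1 0 0, m.1 0 1, 0; m.1 1 0, m.1 1 1, 0; 0, 0, 1], by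
  simp [Matrix.det_fin_three]
  linear_combination det2 m⟩

@[simp] theorem lA_val (m : SL2) : (lA m).1 = !![1, 0, 0; 0, m.1 0 0, m.1 0 1; 0, m.1 1 0, m.1 1 1] := rfl
@[simp] theorem lB_val (m : SL2) : (lB m).1 = !![m.1 0 0, m.1 0 1, 0; m.1 1 0, m.1 1 1, 0; 0, 0, 1] := rfl

theorem mul2 (m n : SL2) (i j : Fin 2) : (m * n).1 i j = m.1 i 0 * n.1 0 j + m.1 i 1 * n.1 1 j := by
  show ((m.1 * n.1)) i j = _
  rw [Matrix.mul_apply, Fin.sum_univ_two]

/-- `lA` as a homomorphism to `PSL₃`. -/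
def iA : SL2 →* P3 := proj.comp (MonoidHom.mk' lA (by
  intro m n
  apply Subtype.ext
  show _ = (lA m).1 * (lA n).1
  ext i j
  fin_cases i <;> fin_cases j <;> simp [Matrix.mul_apply, Fin.sum_univ_three, mul2]))

/-- `lB` as a homomorphism to `PSL₃`. -/
def iB : SL2 →* P3 := proj.comp (MonoidHom.mk' lB (by
  intro m n
  apply Subtype.ext
  show _ = (lB m).1 * (lB n).1
  ext i j
  fin_cases i <;> fin_cases j <;> simp [Matrix.mul_apply, Fin.sum_univ_three, mul2]))

theorem iA_apply (m : SL2) : iA m = proj (lA m) := rfl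
theorem iB_apply (m : SL2) : iB m = proj (lB m) := rfl

theorem ext2 {m n : SL2} (h00 : m.1 0 0 = n.1 0 0) (h01 : m.1 0 1 = n.1 0 1) (h10 : m.1 1 0 = n.1 1 0)
    (h11 : m.1 1 1 = n.1 1 1) : m = n := by
  apply Subtype.ext
  ext i j
  fin_cases i <;> fin_cases j <;> assumption

theorem iA_inj : Function.Injective (iA (F := F)) := by
  rw [injective_iff_map_eq_one]
  intro m hm
  rw [iA_apply, ← map_one proj] at hm
  obtain ⟨r, hr, h⟩ := (proj_eq_iff _ _).mp hm
  have h00 := h 0 0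
  simp at h00
  have hr1 : r = 1 := h00.symm
  subst hr1
  have a1 := h 1 1
  have a2 := h 1 2
  have a3 := h 2 1
  have a4 := h 2 2
  simp at a1 a2 a3 a4
  refine ext2 ?_ ?_ ?_ ?_ <;> simp [← a1, ← a2, ← a3, ← a4]

theorem iB_inj : Function.Injective (iB (F := F)) := by
  rw [injective_iff_map_eq_one]
  intro m hm
  rw [iB_apply, ← map_one proj] at hm
  obtain ⟨r, hr, h⟩ := (proj_eq_iff _ _).mp hm
  have h00 := h 2 2
  simp at h00
  have hr1 : r = 1 := h00.symm
  subst hr1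
  have a1 := h 0 0
  have a2 := h 0 1
  have a3 := h 1 0
  have a4 := h 1 1
  simp at a1 a2 a3 a4
  refine ext2 ?_ ?_ ?_ ?_ <;> simp [← a1, ← a2, ← a3, ← a4]

/-- The upper triangular elements of `SL₂`. -/
def x2 (t : F) : SL2 := ⟨!![1, t; 0, 1], by simp [Matrix.det_fin_two]⟩

@[simp] theorem x2_val (t : F) : (x2 t).1 = !![1, t; 0, 1] := rfl

theorem x2_mul (t s : F) : x2 t * x2 s = x2 (t + s) := by
  apply Subtype.ext
  show (x2 t).1 * (x2 s).1 = _
  ext i j
  fin_cases i <;> fin_cases j <;> simp [Matrix.mul_apply, Fin.sum_univ_two, add_comm]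

theorem x2_zero : x2 (0 : F) = 1 := by
  apply Subtype.ext
  ext i j
  fin_cases i <;> fin_cases j <;> simp

variable [Fintype F] [CharP F 2]

theorem cube_one (hF : Fintype.card F = 4) {r : F} (hr : r ≠ 0) : r ^ 3 = 1 := by
  have := FiniteField.pow_card_sub_one_eq_one r hr
  rwa [hF] at this

theorem exists_om (hF : Fintype.card F = 4) : ∃ ω : F, ω ≠ 0 ∧ ω ≠ 1 := by
  classical
  by_contra h
  push Not at h
  have h1 : (Finset.univ : Finset F) ⊆ {0, 1} := by
    intro x _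
    by_cases hx : x = 0
    · simp [hx]
    · simp [h x hx]
  have h2 := Finset.card_le_card h1
  have h3 : ({0, 1} : Finset F).card ≤ 2 := Finset.card_le_two
  rw [Finset.card_univ, hF] at h2
  omega

/-- Elements of the radical of a Borel in `iA`. -/
def EA : Subgroup P3 where
  carrier := {x | ∃ t : F, x = iA (x2 t)}
  one_mem' := ⟨0, by rw [x2_zero, map_one]⟩
  mul_mem' := by
    rintro _ _ ⟨a, rfl⟩ ⟨a', rfl⟩
    exact ⟨a + a', by rw [← map_mul, x2_mul]⟩
  inv_mem' := by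
    rintro _ ⟨a, rfl⟩
    refine ⟨a, ?_⟩
    rw [inv_eq_iff_mul_eq_one, ← map_mul, x2_mul, CharTwo.add_self_eq_zero, x2_zero, map_one]

/-- Elements of the radical of a Borel in `iB`. -/
def EB : Subgroup P3 where
  carrier := {x | ∃ t : F, x = iB (x2 t)}
  one_mem' := ⟨0, by rw [x2_zero, map_one]⟩
  mul_mem' := by
    rintro _ _ ⟨a, rfl⟩ ⟨a', rfl⟩
    exact ⟨a + a', by rw [← map_mul, x2_mul]⟩
  inv_mem' := by
    rintro _ ⟨a, rfl⟩
    refine ⟨a, ?_⟩
    rw [inv_eq_iff_mul_eq_one, ← map_mul, x2_mul, CharTwo.add_self_eq_zero, x2_zero, map_one]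

theorem x2_inj {t s : F} (h : x2 t = x2 s) : t = s := by
  have := congrArg (fun m : SL2 => m.1 0 1) h
  simpa using this

theorem card_EA (hF : Fintype.card F = 4) : Nat.card (EA (F := F)) = 4 := by
  have hb : Function.Bijective (fun t : F => (⟨iA (x2 t), t, rfl⟩ : EA (F := F))) := by
    constructor
    · intro a b h
      exact x2_inj (iA_inj (congrArg Subtype.val h))
    · rintro ⟨_, a, rfl⟩
      exact ⟨a, rfl⟩
  rw [← Nat.card_eq_of_bijective _ hb, Nat.card_eq_fintype_card, hF]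

theorem card_EB (hF : Fintype.card F = 4) : Nat.card (EB (F := F)) = 4 := by
  have hb : Function.Bijective (fun t : F => (⟨iB (x2 t), t, rfl⟩ : EB (F := F))) := by
    constructor
    · intro a b h
      exact x2_inj (iB_inj (congrArg Subtype.val h))
    · rintro ⟨_, a, rfl⟩
      exact ⟨a, rfl⟩
  rw [← Nat.card_eq_of_bijective _ hb, Nat.card_eq_fintype_card, hF]

theorem card_range {f : SL2 →* P3} (hf : Function.Injective f) (hF : Fintype.card F = 4) :
    Nat.card f.range = 60 := by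
  have h1 : Nat.card f.range = Nat.card SL2 := Nat.card_congr (MonoidHom.ofInjective hf).toEquiv.symm
  rw [h1, Cfsg.Agent.Lib.ClassicalSmall.card_SL2, hF]

theorem odd_rel {E C : Subgroup P3} (hEC : E ≤ C) (hE : Nat.card E = 4) (hC : Nat.card C = 60) :
    Odd (E.relIndex C) := by
  have h1 : (E.subgroupOf C).index * Nat.card (E.subgroupOf C) = Nat.card C := Subgroup.index_mul_card _
  have h2 : Nat.card (E.subgroupOf C) = Nat.card E := Nat.card_congr (Subgroup.subgroupOfEquivOfLe hEC).toEquiv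
  rw [h2, hE, hC] at h1
  have h3 : E.relIndex C = 15 := by
    show (E.subgroupOf C).index = 15
    omega
  rw [h3]
  decide

/-- The first row of an element of `SL₂`. -/
theorem exists_row {a b : F} (h : a ≠ 0 ∨ b ≠ 0) : ∃ m : SL2, m.1 0 0 = a ∧ m.1 0 1 = b := by
  by_cases ha : a = 0
  · subst ha
    have hb := h.resolve_left (by simp)
    refine ⟨⟨!![0, b; b⁻¹, 0], ?_⟩, rfl, rfl⟩
    rw [Matrix.det_fin_two]
    simp [hb, CharTwo.neg_eq]
  · refine ⟨⟨!![a, b; 0, a⁻¹], ?_⟩, rfl, rfl⟩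
    rw [Matrix.det_fin_two]
    simp [ha]

/-- The second column of an element of `SL₂`. -/
theorem exists_col {b c : F} (h : b ≠ 0 ∨ c ≠ 0) : ∃ m : SL2, m.1 0 1 = b ∧ m.1 1 1 = c := by
  by_cases hc : c = 0
  · subst hc
    have hb := h.resolve_right (by simp)
    refine ⟨⟨!![0, b; b⁻¹, 0], ?_⟩, rfl, rfl⟩
    rw [Matrix.det_fin_two]
    simp [hb, CharTwo.neg_eq]
  · refine ⟨⟨!![c⁻¹, b; 0, c], ?_⟩, rfl, rfl⟩
    rw [Matrix.det_fin_two]
    simp [hc]

theorem conj_of_mul {G : Type*} [Group G] {c x y : G} (h : c * x = y * c) : c * x * c⁻¹ = y := by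
  rw [h]; group

theorem goodA (hF : Fintype.card F = 4) : Good (Abar (F := F)) iA.range (EA (F := F)) := by
  refine ⟨?_, ?_, ?_, ?_, ?_, ?_, ?_, ?_, ?_⟩
  · rintro _ ⟨a, b, rfl⟩
    rw [← map_mul, uG_mul, add_self', add_self', ← map_one proj, ← uG_zero]
    simp [add_self']
  · refine ⟨proj (uG 1 0 0), ⟨1, 0, rfl⟩, ?_⟩
    rintro _ ⟨a, b, rfl⟩ hne
    have hab : a ≠ 0 ∨ b ≠ 0 := by
      by_contra hcon
      push Not at hcon
      apply hne
      rw [hcon.1, hcon.2, uG_zero, map_one]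
    obtain ⟨m, h1, h2⟩ := exists_row hab
    refine ⟨iA m, ⟨m, rfl⟩, ?_⟩
    apply conj_of_mul
    rw [iA_apply, ← map_mul, ← map_mul]
    congr 1
    apply Subtype.ext
    show (lA m).1 * (uG a 0 b).1 = (uG 1 0 0).1 * (lA m).1
    ext i j
    fin_cases i <;> fin_cases j <;> simp [Matrix.mul_apply, Fin.sum_univ_three, h1, h2]
  · obtain ⟨ω, h0, h1⟩ := exists_om hF
    refine ⟨proj (uG 1 0 0), proj (uG 0 0 1), proj (uG ω 0 0), ⟨_, _, rfl⟩, ⟨_, _, rfl⟩, ⟨_, _, rfl⟩,
      uG_ne_one (by simp), uG_ne_one (by simp), uG_ne_one (by simp [h0]), ?_, ?_, ?_, ?_⟩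
    · rw [← map_mul, uG_mul]
      exact uG_ne_one (by simp)
    · intro h
      have := (uG_inj h).1
      simp at this
    · intro h
      have := (uG_inj h).1
      exact h1 this.symm
    · rw [← map_mul, uG_mul]
      intro h
      have := (uG_inj h).2.2
      simp at this
  · rintro _ ⟨m, rfl⟩ _ ⟨a, b, rfl⟩
    refine ⟨a * m.1 1 1 - b * m.1 1 0, -a * m.1 0 1 + b * m.1 0 0, ?_⟩
    apply conj_of_mul
    rw [iA_apply, ← map_mul, ← map_mul]
    congr 1
    apply Subtype.ext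
    show (lA m).1 * (uG a 0 b).1 = (uG _ 0 _).1 * (lA m).1
    have hd := det2 m
    ext i j
    fin_cases i <;> fin_cases j <;> simp [Matrix.mul_apply, Fin.sum_univ_three]
    · linear_combination (-a) * hd
    · linear_combination (-b) * hd
  · intro g hg
    obtain ⟨h, rfl⟩ := proj_surjective g
    obtain ⟨a', b', hab⟩ := hg _ (⟨1, 0, rfl⟩ : proj (uG 1 0 0) ∈ Abar (F := F))
    have h1 : proj (h * uG 1 0 0) = proj (uG a' 0 b' * h) := by
      rw [map_mul, map_mul, ← hab]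
      group
    obtain ⟨r, hr, hrr⟩ := (proj_eq_iff _ _).mp h1
    have hdet := h.2
    rw [Matrix.det_fin_three] at hdet
    have e10 := hrr 1 0
    have e11 := hrr 1 1
    have e12 := hrr 1 2
    have e20 := hrr 2 0
    have e21 := hrr 2 1
    have e22 := hrr 2 2
    simp [Matrix.mul_apply, Fin.sum_univ_three] at e10 e11 e12 e20 e21 e22
    have hr1 : r = 1 := by
      by_contra hne
      have hne' : 1 - r ≠ 0 := sub_ne_zero.mpr (Ne.symm hne)
      have z10 : h.1 1 0 = 0 := by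
        have : (1 - r) * h.1 1 0 = 0 := by linear_combination e10
        exact (mul_eq_zero.mp this).resolve_left hne'
      have z12 : h.1 1 2 = 0 := by
        have : (1 - r) * h.1 1 2 = 0 := by linear_combination e12
        exact (mul_eq_zero.mp this).resolve_left hne'
      have z11 : h.1 1 1 = 0 := by
        have : (1 - r) * h.1 1 1 = 0 := by linear_combination e11 + r * z10
        exact (mul_eq_zero.mp this).resolve_left hne'
      rw [z10, z11, z12] at hdet
      simp at hdet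
    subst hr1
    have z10 : h.1 1 0 = 0 := by linear_combination -e11
    have z20 : h.1 2 0 = 0 := by linear_combination -e21
    rw [z10, z20] at hdet
    simp only [mul_zero, zero_mul, sub_zero, add_zero] at hdet
    set l := h.1 0 0 with hl
    have hl0 : l ≠ 0 := by
      rintro hl0
      rw [hl0] at hdet
      simp at hdet
    have hs0 : l⁻¹ ≠ 0 := inv_ne_zero hl0
    have hcube := cube_one hF hs0
    have hll : l * l⁻¹ = 1 := mul_inv_cancel₀ hl0
    have hD : h.1 1 1 * h.1 2 2 - h.1 1 2 * h.1 2 1 = l⁻¹ := by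
      field_simp
      linear_combination hdet
    obtain ⟨m, m00, m01, m10, m11⟩ : ∃ m : SL2, m.1 0 0 = l⁻¹ * h.1 1 1 ∧ m.1 0 1 = l⁻¹ * h.1 1 2 ∧
        m.1 1 0 = l⁻¹ * h.1 2 1 ∧ m.1 1 1 = l⁻¹ * h.1 2 2 := by
      refine ⟨⟨!![l⁻¹ * h.1 1 1, l⁻¹ * h.1 1 2; l⁻¹ * h.1 2 1, l⁻¹ * h.1 2 2], ?_⟩, rfl, rfl, rfl, rfl⟩
      rw [Matrix.det_fin_two]
      simp only [Matrix.of_apply, Matrix.cons_val', Matrix.cons_val_zero, Matrix.cons_val_one, Matrix.cons_val_fin_one]
      linear_combination (l⁻¹) ^ 2 * hD + hcube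
    refine ⟨iA m, ⟨m, rfl⟩, proj (uG (l⁻¹ * h.1 0 1) 0 (l⁻¹ * h.1 0 2)), ⟨_, _, rfl⟩, ?_⟩
    rw [iA_apply, ← map_mul]
    refine (proj_eq_iff _ _).mpr ⟨l⁻¹, hcube, ?_⟩
    intro i j
    show ((lA m).1 * (uG (l⁻¹ * h.1 0 1) 0 (l⁻¹ * h.1 0 2)).1 : Matrix (Fin 3) (Fin 3) F) i j = _
    fin_cases i <;> fin_cases j <;> simp [Matrix.mul_apply, Fin.sum_univ_three, m00, m01, m10, m11, z10, z20, hl0, ← hl]
  · rintro _ ⟨a, b, rfl⟩ ⟨m, hm⟩
    rw [iA_apply] at hm
    obtain ⟨r, hr, h⟩ := (proj_eq_iff _ _).mp hm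
    have h00 := h 0 0
    simp at h00
    have hr1 : r = 1 := h00.symm
    subst hr1
    have a1 := h 0 1
    have a2 := h 0 2
    simp at a1 a2
    rw [a1, a2, uG_zero, map_one]
  · rintro _ ⟨t, rfl⟩
    exact ⟨x2 t, rfl⟩
  · apply odd_rel
    · rintro _ ⟨t, rfl⟩
      exact ⟨x2 t, rfl⟩
    · exact card_EA hF
    · exact card_range iA_inj hF
  · rintro _ ⟨t, rfl⟩
    let P : SL3 := ⟨!![0, 1, 0; 1, 0, 0; 0, 0, 1], by simp [Matrix.det_fin_three, CharTwo.neg_eq]⟩
    refine ⟨proj P, ⟨0, t, ?_⟩⟩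
    apply conj_of_mul
    rw [iA_apply, ← map_mul, ← map_mul]
    congr 1
    apply Subtype.ext
    show P.1 * (lA (x2 t)).1 = (uG 0 0 t).1 * P.1
    ext i j
    fin_cases i <;> fin_cases j <;> simp [Matrix.mul_apply, Fin.sum_univ_three, P]

theorem goodB (hF : Fintype.card F = 4) : Good (Bbar (F := F)) iB.range (EB (F := F)) := by
  have hnorm : ∀ c ∈ (iB (F := F)).range, ∀ x ∈ Bbar (F := F), c * x * c⁻¹ ∈ Bbar (F := F) := by
    rintro _ ⟨m, rfl⟩ _ ⟨c, b, rfl⟩
    refine ⟨m.1 1 0 * b + m.1 1 1 * c, m.1 0 0 * b + m.1 0 1 * c, ?_⟩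
    apply conj_of_mul
    rw [iB_apply, ← map_mul, ← map_mul]
    congr 1
    apply Subtype.ext
    show (lB m).1 * (uG 0 c b).1 = (uG 0 _ _).1 * (lB m).1
    ext i j
    fin_cases i <;> fin_cases j <;> simp [Matrix.mul_apply, Fin.sum_univ_three]
  refine ⟨?_, ?_, ?_, hnorm, ?_, ?_, ?_, ?_, ?_⟩
  · rintro _ ⟨a, b, rfl⟩
    rw [← map_mul, uG_mul, add_self', ← map_one proj, ← uG_zero]
    simp [add_self']
  · refine ⟨proj (uG 0 1 0), ⟨1, 0, rfl⟩, ?_⟩
    rintro _ ⟨c, b, rfl⟩ hne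
    have hab : b ≠ 0 ∨ c ≠ 0 := by
      by_contra hcon
      push Not at hcon
      apply hne
      rw [hcon.1, hcon.2, uG_zero, map_one]
    obtain ⟨m, h1, h2⟩ := exists_col hab
    refine ⟨(iB m)⁻¹, ⟨m⁻¹, map_inv _ _⟩, ?_⟩
    have e : iB m * proj (uG 0 1 0) = proj (uG 0 c b) * iB m := by
      rw [iB_apply, ← map_mul, ← map_mul]
      congr 1
      apply Subtype.ext
      show (lB m).1 * (uG 0 1 0).1 = (uG 0 c b).1 * (lB m).1
      ext i j
      fin_cases i <;> fin_cases j <;> simp [Matrix.mul_apply, Fin.sum_univ_three, h1, h2]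
    rw [inv_inv, mul_assoc, ← e]
    group
  · obtain ⟨ω, h0, h1⟩ := exists_om hF
    refine ⟨proj (uG 0 1 0), proj (uG 0 0 1), proj (uG 0 ω 0), ⟨_, _, rfl⟩, ⟨_, _, rfl⟩, ⟨_, _, rfl⟩,
      uG_ne_one (by simp), uG_ne_one (by simp), uG_ne_one (by simp [h0]), ?_, ?_, ?_, ?_⟩
    · rw [← map_mul, uG_mul]
      exact uG_ne_one (by simp)
    · intro h
      have := (uG_inj h).2.1
      simp at this
    · intro h
      have := (uG_inj h).2.1
      exact h1 this.symm
    · rw [← map_mul, uG_mul]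
      intro h
      have := (uG_inj h).2.2
      simp at this
  · intro g hg
    obtain ⟨h, rfl⟩ := proj_surjective g
    obtain ⟨c', b', hab⟩ := hg _ (⟨0, 1, rfl⟩ : proj (uG 0 0 1) ∈ Bbar (F := F))
    have h1 : proj (h * uG 0 0 1) = proj (uG 0 c' b' * h) := by
      rw [map_mul, map_mul, ← hab]
      group
    obtain ⟨c'', b'', hab'⟩ := hg _ (⟨1, 0, rfl⟩ : proj (uG 0 1 0) ∈ Bbar (F := F))
    have h1' : proj (h * uG 0 1 0) = proj (uG 0 c'' b'' * h) := by
      rw [map_mul, map_mul, ← hab']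
      group
    obtain ⟨r, hr, hrr⟩ := (proj_eq_iff _ _).mp h1
    obtain ⟨r', hr', hrr'⟩ := (proj_eq_iff _ _).mp h1'
    have hdet := h.2
    rw [Matrix.det_fin_three] at hdet
    have e20 := hrr 2 0
    have e21 := hrr 2 1
    have e22 := hrr 2 2
    have e20' := hrr' 2 0
    have e21' := hrr' 2 1
    have e22' := hrr' 2 2
    simp [Matrix.mul_apply, Fin.sum_univ_three] at e20 e21 e22 e20' e21' e22'
    have hr1 : r = 1 := by
      by_contra hne
      have hne' : 1 - r ≠ 0 := sub_ne_zero.mpr (Ne.symm hne)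
      have z0 : h.1 2 0 = 0 := by
        have : (1 - r) * h.1 2 0 = 0 := by linear_combination e20
        exact (mul_eq_zero.mp this).resolve_left hne'
      have z1 : h.1 2 1 = 0 := by
        have : (1 - r) * h.1 2 1 = 0 := by linear_combination e21
        exact (mul_eq_zero.mp this).resolve_left hne'
      have z2 : h.1 2 2 = 0 := by
        have : (1 - r) * h.1 2 2 = 0 := by linear_combination e22 + r * z0
        exact (mul_eq_zero.mp this).resolve_left hne'
      rw [z0, z1, z2] at hdet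
      simp at hdet
    have hr1' : r' = 1 := by
      by_contra hne
      have hne' : 1 - r' ≠ 0 := sub_ne_zero.mpr (Ne.symm hne)
      have z0 : h.1 2 0 = 0 := by
        have : (1 - r') * h.1 2 0 = 0 := by linear_combination e20'
        exact (mul_eq_zero.mp this).resolve_left hne'
      have z1 : h.1 2 1 = 0 := by
        have : (1 - r') * h.1 2 1 = 0 := by linear_combination e21'
        exact (mul_eq_zero.mp this).resolve_left hne'
      have z2 : h.1 2 2 = 0 := by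
        have : (1 - r') * h.1 2 2 = 0 := by linear_combination e22' + r' * z1
        exact (mul_eq_zero.mp this).resolve_left hne'
      rw [z0, z1, z2] at hdet
      simp at hdet
    subst hr1
    subst hr1'
    have z20 : h.1 2 0 = 0 := by linear_combination -e22
    have z21 : h.1 2 1 = 0 := by linear_combination -e22'
    rw [z20, z21] at hdet
    simp only [mul_zero, zero_mul, sub_zero, add_zero, zero_add] at hdet
    set l := h.1 2 2 with hl
    have hl0 : l ≠ 0 := by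
      rintro hl0
      rw [hl0] at hdet
      simp at hdet
    have hs0 : l⁻¹ ≠ 0 := inv_ne_zero hl0
    have hcube := cube_one hF hs0
    have hll : l * l⁻¹ = 1 := mul_inv_cancel₀ hl0
    have hD : h.1 0 0 * h.1 1 1 - h.1 0 1 * h.1 1 0 = l⁻¹ := by
      field_simp
      linear_combination hdet
    obtain ⟨m, m00, m01, m10, m11⟩ : ∃ m : SL2, m.1 0 0 = l⁻¹ * h.1 0 0 ∧ m.1 0 1 = l⁻¹ * h.1 0 1 ∧
        m.1 1 0 = l⁻¹ * h.1 1 0 ∧ m.1 1 1 = l⁻¹ * h.1 1 1 := by
      refine ⟨⟨!![l⁻¹ * h.1 0 0, l⁻¹ * h.1 0 1; l⁻¹ * h.1 1 0, l⁻¹ * h.1 1 1], ?_⟩, rfl, rfl, rfl, rfl⟩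
      rw [Matrix.det_fin_two]
      simp only [Matrix.of_apply, Matrix.cons_val', Matrix.cons_val_zero, Matrix.cons_val_one, Matrix.cons_val_fin_one]
      linear_combination (l⁻¹) ^ 2 * hD + hcube
    have hmem : proj (uG 0 (l⁻¹ * h.1 1 2) (l⁻¹ * h.1 0 2)) ∈ Bbar (F := F) := ⟨_, _, rfl⟩
    refine ⟨iB m, ⟨m, rfl⟩, (iB m)⁻¹ * proj (uG 0 (l⁻¹ * h.1 1 2) (l⁻¹ * h.1 0 2)) * iB m, ?_, ?_⟩
    · have := hnorm _ (Subgroup.inv_mem _ ⟨m, rfl⟩) _ hmem
      simpa using this
    · have e : proj h = proj (uG 0 (l⁻¹ * h.1 1 2) (l⁻¹ * h.1 0 2)) * iB m := by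
        rw [iB_apply, ← map_mul]
        refine (proj_eq_iff _ _).mpr ⟨l⁻¹, hcube, ?_⟩
        intro i j
        show ((uG 0 (l⁻¹ * h.1 1 2) (l⁻¹ * h.1 0 2)).1 * (lB m).1 : Matrix (Fin 3) (Fin 3) F) i j = _
        fin_cases i <;> fin_cases j <;> simp [Matrix.mul_apply, Fin.sum_univ_three, m00, m01, m10, m11, z20, z21, hl0, ← hl]
      rw [e]
      group
  · rintro _ ⟨c, b, rfl⟩ ⟨m, hm⟩
    rw [iB_apply] at hm
    obtain ⟨r, hr, h⟩ := (proj_eq_iff _ _).mp hm
    have h00 := h 2 2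
    simp at h00
    have hr1 : r = 1 := h00.symm
    subst hr1
    have a1 := h 1 2
    have a2 := h 0 2
    simp at a1 a2
    rw [a1, a2, uG_zero, map_one]
  · rintro _ ⟨t, rfl⟩
    exact ⟨x2 t, rfl⟩
  · apply odd_rel
    · rintro _ ⟨t, rfl⟩
      exact ⟨x2 t, rfl⟩
    · exact card_EB hF
    · exact card_range iB_inj hF
  · rintro _ ⟨t, rfl⟩
    let P : SL3 := ⟨!![1, 0, 0; 0, 0, 1; 0, 1, 0], by simp [Matrix.det_fin_three, CharTwo.neg_eq]⟩
    refine ⟨proj P, ⟨0, t, ?_⟩⟩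
    apply conj_of_mul
    rw [iB_apply, ← map_mul, ← map_mul]
    congr 1
    apply Subtype.ext
    show P.1 * (lB (x2 t)).1 = (uG 0 0 t).1 * P.1
    ext i j
    fin_cases i <;> fin_cases j <;> simp [Matrix.mul_apply, Fin.sum_univ_three, P]

/-- `SL₂(F)`, `F` of characteristic two, has trivial centre. -/
theorem center_SL2_bot : Subgroup.center SL2 = ⊥ := by
  rw [eq_bot_iff]
  intro A hA
  obtain ⟨r, hr, hrA⟩ := Matrix.SpecialLinearGroup.mem_center_iff.mp hA
  have h2 : (2 : F) = 0 := CharTwo.two_eq_zero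
  have h : (r - 1) ^ 2 = 0 := by
    simp only [Fintype.card_fin] at hr
    linear_combination hr + (1 - r) * h2
  have h1 : r = 1 := sub_eq_zero.mp (pow_eq_zero_iff two_ne_zero |>.mp h)
  subst h1
  rw [Subgroup.mem_bot]
  apply Subtype.ext
  rw [← hrA]
  simp

/-- The range of an injective homomorphism from `SL₂(F)` is `PSL₂(F)`. -/
theorem range_equiv {f : SL2 →* P3} (hf : Function.Injective f) :
    Nonempty (f.range ≃* Matrix.ProjectiveSpecialLinearGroup (Fin 2) F) :=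
  ⟨(MonoidHom.ofInjective hf).symm.trans
    ((QuotientGroup.quotientMulEquivOfEq (center_SL2_bot (F := F))).trans QuotientGroup.quotientBot).symm⟩

end Cfsg.Agent.Lib.L34CovGood
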