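import Mathlib
import Cfsg.Agent.Lib.FusionNormCent
import Cfsg.Agent.Lib.PuigBasic

set_option autoImplicit false

/-!
# The 2-fusion system of a group with an involution centralizer of rank two

Axiomatic data: a group `Gt`, a group `G2` of `2 × 2` matrices over a field of odd characteristic, an embedding of `G2` in `Gt`
with `G2` containing `J` with `J² = -1` and an involution `t` inverting `J`. The `2`-elements of the centralizer of `J`
together with `t` form a subgroup `Q`, and its image in `Gt` is (under the hypotheses below) a Sylow `2`-subgroup of `Gt`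
with the properties required by the simplicity criterion.
-/

namespace Cfsg.Agent.Lib.Rk2Frame

open Cfsg.Agent.Lib.FusionNormCent

section alg
variable {F A : Type*} [Field F] [Ring A] [Algebra F A]

theorem mul_form {j : A} (hj : j * j = -1) (a b c d : F) :
    (a • (1:A) + b • j) * (c • (1:A) + d • j) = (a*c - b*d) • (1:A) + (a*d + b*c) • j := by
  simp only [add_mul, mul_add, smul_mul_assoc, mul_smul_comm, one_mul, mul_one, smul_smul, hj]
  module

end alg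

/-- The data. -/
structure Data (F G2 Gt : Type*) [Field F] [Group G2] [Group Gt] where
  toM : G2 →* Matrix (Fin 2) (Fin 2) F
  ι : G2 →* Gt
  J : G2
  t : G2
  hinjM : Function.Injective toM
  hinjι : Function.Injective ι
  two_ne : (2 : F) ≠ 0
  hJ2 : toM J * toM J = -1
  ht2 : t * t = 1
  htJ : toM t * toM J = -(toM J * toM t)
  hJc : ∀ w : Matrix (Fin 2) (Fin 2) F, w * toM J = toM J * w → ∃ a b : F, w = a • 1 + b • toM J
  hJi : ∀ a b : F, a • (1 : Matrix (Fin 2) (Fin 2) F) + b • toM J = 0 → a = 0 ∧ b = 0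

namespace Data

variable {F G2 Gt : Type*} [Field F] [Group G2] [Group Gt] (D : Data F G2 Gt)

abbrev M2 (F : Type*) := Matrix (Fin 2) (Fin 2) F

theorem t_inv : D.t⁻¹ = D.t := inv_eq_of_mul_eq_one_left D.ht2

theorem toM_tt : D.toM D.t * D.toM D.t = 1 := by
  rw [← map_mul, D.ht2, map_one]

theorem comm_of_matrix {x y : G2} (h : D.toM x * D.toM y = D.toM y * D.toM x) : x * y = y * x := by
  apply D.hinjM
  rw [map_mul, map_mul, h]

theorem toM_comm {x y : G2} (h : x * y = y * x) : D.toM x * D.toM y = D.toM y * D.toM x := by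
  rw [← map_mul, ← map_mul, h]

theorem form_comm (a b : F) : (a • (1 : M2 F) + b • D.toM D.J) * D.toM D.J = D.toM D.J * (a • (1 : M2 F) + b • D.toM D.J) := by
  simp only [add_mul, mul_add, smul_mul_assoc, mul_smul_comm, one_mul, mul_one]

theorem exists_form {x : G2} (hx : x * D.J = D.J * x) : ∃ a b : F, D.toM x = a • 1 + b • D.toM D.J :=
  D.hJc _ (D.toM_comm hx)

theorem comm_of_form {x : G2} {a b : F} (h : D.toM x = a • 1 + b • D.toM D.J) : x * D.J = D.J * x := by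
  apply D.comm_of_matrix
  rw [h]
  exact D.form_comm a b

theorem toM_mul_form {x y : G2} {a b c d : F} (hx : D.toM x = a • 1 + b • D.toM D.J)
    (hy : D.toM y = c • 1 + d • D.toM D.J) :
    D.toM (x * y) = (a*c - b*d) • 1 + (a*d + b*c) • D.toM D.J := by
  rw [map_mul, hx, hy, mul_form D.hJ2]

theorem T_comm {x y : G2} (hx : x * D.J = D.J * x) (hy : y * D.J = D.J * y) : x * y = y * x := by
  obtain ⟨a, b, ha⟩ := D.exists_form hx
  obtain ⟨c, d, hc⟩ := D.exists_form hy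
  apply D.hinjM
  rw [D.toM_mul_form ha hc, D.toM_mul_form hc ha]
  congr 2 <;> ring

theorem t_J_t : D.toM D.t * D.toM D.J * D.toM D.t = - D.toM D.J := by
  rw [D.htJ, neg_mul, mul_assoc, D.toM_tt, mul_one]

theorem toM_t_form {x : G2} {a b : F} (hx : D.toM x = a • 1 + b • D.toM D.J) :
    D.toM (D.t * x * D.t) = a • 1 + (-b) • D.toM D.J := by
  rw [map_mul, map_mul, hx]
  have h1 : D.toM D.t * (a • (1 : M2 F) + b • D.toM D.J) * D.toM D.t =
      a • (D.toM D.t * D.toM D.t) + b • (D.toM D.t * D.toM D.J * D.toM D.t) := by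
    simp only [add_mul, mul_add, smul_mul_assoc, mul_smul_comm, one_mul, mul_one, mul_assoc]
  rw [h1, D.toM_tt, D.t_J_t, neg_smul, smul_neg]

theorem t_conj_comm {x : G2} (hx : x * D.J = D.J * x) : (D.t * x * D.t) * D.J = D.J * (D.t * x * D.t) := by
  obtain ⟨a, b, ha⟩ := D.exists_form hx
  exact D.comm_of_form (D.toM_t_form ha)

/-- `t` does not commute with `J`. -/
theorem t_not_comm : D.t * D.J ≠ D.J * D.t := by
  intro h
  have h1 := D.toM_comm h
  have h2 : D.toM D.J * D.toM D.t = 0 := by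
    have h3 : (2 : F) • (D.toM D.J * D.toM D.t) = 0 := by
      have h4 := D.htJ
      rw [h1] at h4
      rw [two_smul]
      nth_rewrite 1 [h4]
      simp
    exact (smul_eq_zero.mp h3).resolve_left D.two_ne
  rw [← map_mul] at h2
  have h3 : D.toM (D.J * D.t) * D.toM (D.J * D.t)⁻¹ = 1 := by rw [← map_mul, mul_inv_cancel, map_one]
  rw [h2, zero_mul] at h3
  have h4 := D.hJi 1 0 (by
    simp only [one_smul, zero_smul, add_zero]
    exact h3.symm)
  exact one_ne_zero h4.1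

theorem J_not_scalar (a : F) : D.toM D.J ≠ a • 1 := by
  intro h
  have h4 := D.hJi a (-1) (by
    rw [h]
    simp)
  have : (-1 : F) ≠ 0 := by simp
  exact this h4.2

theorem inv_scalar {x : G2} {a : F} (h : D.toM x = a • 1) : ∃ b : F, D.toM x⁻¹ = b • 1 := by
  have h3 : D.toM x * D.toM x⁻¹ = 1 := by rw [← map_mul, mul_inv_cancel, map_one]
  rw [h, smul_mul_assoc, one_mul] at h3
  have ha : a ≠ 0 := by
    rintro rfl
    rw [zero_smul] at h3
    have h4 := D.hJi 1 0 (by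
      simp only [one_smul, zero_smul, add_zero]
      exact h3.symm)
    exact one_ne_zero h4.1
  refine ⟨a⁻¹, ?_⟩
  rw [← h3, smul_smul, inv_mul_cancel₀ ha, one_smul]

theorem scalar_comm {c : G2} {a : F} (h : D.toM c = a • 1) (x : G2) : c * x = x * c := by
  apply D.comm_of_matrix
  rw [h]
  simp

theorem scalar_pow {c : G2} {a : F} (h : D.toM c = a • 1) (m : ℕ) : ∃ b : F, D.toM (c ^ m) = b • 1 := by
  induction m with
  | zero => exact ⟨1, by simp⟩
  | succ m ih =>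
    obtain ⟨b, hb⟩ := ih
    refine ⟨b * a, ?_⟩
    rw [pow_succ, map_mul, hb, h, smul_mul_assoc, one_mul, smul_smul]

theorem scalar_conj {c g : G2} {a : F} (h : D.toM (g * c * g⁻¹) = a • 1) : D.toM c = a • 1 := by
  have h1 : c = g⁻¹ * (g * c * g⁻¹) * g := by group
  rw [h1, map_mul, map_mul, h]
  simp only [smul_mul_assoc, mul_smul_comm, one_mul, mul_one]
  rw [← map_mul, inv_mul_cancel, map_one]

/-- The `2`-elements commuting with `J`. -/
def Q1 : Subgroup G2 where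
  carrier := {x | x * D.J = D.J * x ∧ ∃ k : ℕ, x ^ 2 ^ k = 1}
  mul_mem' := by
    rintro x y ⟨hx, k, hk⟩ ⟨hy, l, hl⟩
    refine ⟨?_, k + l, ?_⟩
    · rw [mul_assoc, hy, ← mul_assoc, hx, mul_assoc]
    · have hc : Commute x y := D.T_comm hx hy
      rw [hc.mul_pow, pow_add, pow_mul, hk, one_pow, one_mul, mul_comm (2 ^ k), pow_mul, hl, one_pow]
  one_mem' := ⟨by simp, 0, by simp⟩
  inv_mem' := by
    rintro x ⟨hx, k, hk⟩
    refine ⟨?_, k, ?_⟩
    · have h1 : x⁻¹ * D.J * x = D.J := by rw [mul_assoc, ← hx]; group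
      calc x⁻¹ * D.J = x⁻¹ * D.J * x * x⁻¹ := by group
        _ = D.J * x⁻¹ := by rw [h1]
    · rw [inv_pow, hk, inv_one]

theorem mem_Q1 {x : G2} : x ∈ D.Q1 ↔ x * D.J = D.J * x ∧ ∃ k : ℕ, x ^ 2 ^ k = 1 := Iff.rfl

theorem t_conj_mem {y : G2} (hy : y ∈ D.Q1) : D.t * y * D.t ∈ D.Q1 := by
  obtain ⟨h1, k, hk⟩ := hy
  refine ⟨D.t_conj_comm h1, k, ?_⟩
  nth_rewrite 2 [← D.t_inv]
  rw [conj_pow, hk]
  simp

theorem J_mem : D.J ∈ D.Q1 := by
  refine ⟨rfl, 2, ?_⟩
  apply D.hinjM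
  rw [map_pow, map_one]
  have : D.toM D.J ^ 2 ^ 2 = (D.toM D.J * D.toM D.J) * (D.toM D.J * D.toM D.J) := by
    simp [pow_succ, mul_assoc]
  rw [this, D.hJ2]
  simp

/-- The subgroup `Q`. -/
def Q : Subgroup G2 where
  carrier := {x | x ∈ D.Q1 ∨ x * D.t ∈ D.Q1}
  mul_mem' := by
    rintro x y (hx | hx) (hy | hy)
    · exact Or.inl (D.Q1.mul_mem hx hy)
    · refine Or.inr ?_
      rw [mul_assoc]
      exact D.Q1.mul_mem hx hy
    · refine Or.inr ?_
      have h1 : x * y * D.t = (x * D.t) * (D.t * y * D.t) := by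
        have h2 : D.t * D.t = 1 := D.ht2
        calc x * y * D.t = x * 1 * y * D.t := by group
          _ = x * (D.t * D.t) * y * D.t := by rw [h2]
          _ = _ := by group
      rw [h1]
      exact D.Q1.mul_mem hx (D.t_conj_mem hy)
    · refine Or.inl ?_
      have h1 : x * y = (x * D.t) * (D.t * (y * D.t) * D.t) := by
        have h2 : D.t * D.t = 1 := D.ht2
        calc x * y = x * 1 * y * 1 := by group
          _ = x * (D.t * D.t) * y * (D.t * D.t) := by rw [h2]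
          _ = _ := by group
      rw [h1]
      exact D.Q1.mul_mem hx (D.t_conj_mem hy)
  one_mem' := Or.inl (D.Q1.one_mem)
  inv_mem' := by
    rintro x (hx | hx)
    · exact Or.inl (D.Q1.inv_mem hx)
    · refine Or.inr ?_
      have h1 : x⁻¹ * D.t = (D.t * (x * D.t) * D.t)⁻¹ := by
        have h2 : D.t⁻¹ = D.t := D.t_inv
        have h3 : D.t * D.t = 1 := D.ht2
        calc x⁻¹ * D.t = x⁻¹ * D.t⁻¹ := by rw [h2]
          _ = (D.t * x)⁻¹ := by group
          _ = (D.t * x * (D.t * D.t))⁻¹ := by rw [h3, mul_one]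
          _ = _ := by group
      rw [h1]
      exact D.Q1.inv_mem (D.t_conj_mem hx)

theorem mem_Q {x : G2} : x ∈ D.Q ↔ x ∈ D.Q1 ∨ x * D.t ∈ D.Q1 := Iff.rfl

theorem Q1_le_Q : D.Q1 ≤ D.Q := fun _ h => Or.inl h

theorem t_mem : D.t ∈ D.Q := Or.inr (by rw [D.ht2]; exact D.Q1.one_mem)

/-- For `x = y t` with `y` in `Q1`, the square `x²` lies in `Q1`. -/
theorem sq_mem_of_mul_t {x : G2} (hx : x * D.t ∈ D.Q1) : x * x ∈ D.Q1 := by
  have h1 : x * x = (x * D.t) * (D.t * (x * D.t) * D.t) := by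
    have h2 : D.t * D.t = 1 := D.ht2
    calc x * x = x * 1 * x * 1 := by group
      _ = x * (D.t * D.t) * x * (D.t * D.t) := by rw [h2]
      _ = _ := by group
  rw [h1]
  exact D.Q1.mul_mem hx (D.t_conj_mem hx)

/-- For `x = y t` with `y` commuting with `J`, the square `x²` is scalar. -/
theorem sq_scalar_of_mul_t {x : G2} (hx : (x * D.t) * D.J = D.J * (x * D.t)) : ∃ n : F, D.toM (x * x) = n • 1 := by
  obtain ⟨a, b, hab⟩ := D.exists_form hx
  have h1 : x * x = (x * D.t) * (D.t * (x * D.t) * D.t) := by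
    have h2 : D.t * D.t = 1 := D.ht2
    calc x * x = x * 1 * x * 1 := by group
      _ = x * (D.t * D.t) * x * (D.t * D.t) := by rw [h2]
      _ = _ := by group
  refine ⟨a ^ 2 + b ^ 2, ?_⟩
  rw [h1, D.toM_mul_form hab (D.toM_t_form hab)]
  have h3 : a * -b + b * a = 0 := by ring
  have h4 : a * a - b * -b = a ^ 2 + b ^ 2 := by ring
  rw [h3, h4, zero_smul, add_zero]

theorem mem_Q_pow {x : G2} (hx : x ∈ D.Q) : ∃ k : ℕ, x ^ 2 ^ k = 1 := by
  rcases hx with hx | hx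
  · exact hx.2
  · obtain ⟨-, k, hk⟩ := D.sq_mem_of_mul_t hx
    refine ⟨k + 1, ?_⟩
    rw [pow_succ', pow_mul]
    rw [← pow_two] at hk
    exact hk

theorem mem_Q1_of_Q_comm {x : G2} (hx : x ∈ D.Q) (hc : x * D.J = D.J * x) : x ∈ D.Q1 := by
  rcases hx with hx | hx
  · exact hx
  · exfalso
    apply D.t_not_comm
    have h1 := hx.1
    have h2 : x * (D.t * D.J) = x * (D.J * D.t) := by
      calc x * (D.t * D.J) = x * D.t * D.J := by group
        _ = D.J * (x * D.t) := h1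
        _ = (D.J * x) * D.t := by group
        _ = (x * D.J) * D.t := by rw [hc]
        _ = _ := by group
    exact mul_left_cancel h2

theorem central_invol {w : G2} (hJ : w * D.J = D.J * w) (ht : w * D.t = D.t * w) (hw : w * w = 1) (hne : w ≠ 1) :
    w = D.J * D.J := by
  obtain ⟨a, b, hab⟩ := D.exists_form hJ
  -- `b = 0`
  have h1 : D.t * w * D.t = w := by
    rw [← ht, mul_assoc, D.ht2, mul_one]
  have h2 := D.toM_t_form hab
  rw [h1, hab] at h2
  have h3 : (0 : F) • (1 : M2 F) + (2 * b) • D.toM D.J = 0 := by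
    have h4 : (0 : F) • (1 : M2 F) + (2 * b) • D.toM D.J =
        (a • (1 : M2 F) + b • D.toM D.J) - (a • (1 : M2 F) + (-b) • D.toM D.J) := by module
    rw [h4, ← h2, sub_self]
  have hb : b = 0 := (mul_eq_zero.mp (D.hJi _ _ h3).2).resolve_left D.two_ne
  subst hb
  rw [zero_smul, add_zero] at hab
  have h5 : D.toM (w * w) = (a * a) • 1 := by
    rw [map_mul, hab, smul_mul_assoc, one_mul, smul_smul]
  rw [hw, map_one] at h5
  have h6 : a * a = 1 := by
    have h7 : (a * a - 1) • (1 : M2 F) + (0 : F) • D.toM D.J = 0 := by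
      rw [zero_smul, add_zero, sub_smul, ← h5, one_smul, sub_self]
    have := (D.hJi _ _ h7).1
    linear_combination this
  rcases mul_self_eq_one_iff.mp h6 with rfl | rfl
  · exfalso
    apply hne
    apply D.hinjM
    rw [hab, one_smul, map_one]
  · apply D.hinjM
    rw [hab, map_mul, D.hJ2]
    simp

theorem toM_JJ : D.toM (D.J * D.J) = (-1 : F) • 1 := by
  rw [map_mul, D.hJ2]
  simp

theorem JJ_comm (x : G2) : (D.J * D.J) * x = x * (D.J * D.J) := D.scalar_comm D.toM_JJ x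

theorem JJ_sq : (D.J * D.J) * (D.J * D.J) = 1 := by
  apply D.hinjM
  rw [map_mul, D.toM_JJ, map_one]
  simp

theorem JJ_ne : D.J * D.J ≠ 1 := by
  intro h
  have h1 := D.toM_JJ
  rw [h, map_one] at h1
  have h7 : (2 : F) • (1 : M2 F) + (0 : F) • D.toM D.J = 0 := by
    rw [zero_smul, add_zero, two_smul]
    nth_rewrite 1 [h1]
    simp
  exact D.two_ne (D.hJi _ _ h7).1

/-- An element commuting with `J` and normalizing `Q` lies in `Q1` modulo scalars. -/
theorem normalizer_comm [Finite G2] {g : G2} (hgJ : g * D.J = D.J * g) (hg : ∀ s ∈ D.Q, g * s * g⁻¹ ∈ D.Q) :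
    ∃ s ∈ D.Q1, ∃ c, (∃ a : F, D.toM c = a • 1) ∧ g = s * c := by
  obtain ⟨α, β, hαβ⟩ := D.exists_form hgJ
  set e := D.t * g * D.t with he
  have heform : D.toM e = α • 1 + (-β) • D.toM D.J := D.toM_t_form hαβ
  have heJ : e * D.J = D.J * e := D.comm_of_form heform
  set d := g * e with hd
  have hdform : D.toM d = (α ^ 2 + β ^ 2) • 1 := by
    rw [hd, D.toM_mul_form hαβ heform]
    have h3 : α * -β + β * α = 0 := by ring
    have h4 : α * α - β * -β = α ^ 2 + β ^ 2 := by ring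
    rw [h3, h4, zero_smul, add_zero]
  set w := g * D.t * g⁻¹ * D.t with hw
  have hwQ : w ∈ D.Q := D.Q.mul_mem (hg _ D.t_mem) D.t_mem
  have hwe : w = g * e⁻¹ := by
    have h2 : D.t⁻¹ = D.t := D.t_inv
    rw [hw, he, mul_inv_rev, mul_inv_rev, h2]
    group
  have heinvJ : e⁻¹ * D.J = D.J * e⁻¹ := by
    have h1 : e⁻¹ * D.J * e = D.J := by rw [mul_assoc, ← heJ]; group
    calc e⁻¹ * D.J = e⁻¹ * D.J * e * e⁻¹ := by group
      _ = D.J * e⁻¹ := by rw [h1]
  have hwJ : w * D.J = D.J * w := by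
    rw [hwe, mul_assoc, heinvJ, ← mul_assoc, hgJ, mul_assoc]
  have hwQ1 : w ∈ D.Q1 := D.mem_Q1_of_Q_comm hwQ hwJ
  have hgg : g * g = w * d := by
    have h1 : e * g = g * e := D.T_comm heJ hgJ
    rw [hwe, hd]
    calc g * g = g * (e⁻¹ * (e * g)) := by group
      _ = g * (e⁻¹ * (g * e)) := by rw [h1]
      _ = _ := by group
  have hord : orderOf g ≠ 0 := (orderOf_pos g).ne'
  obtain ⟨k, n, hn, hkn⟩ := Nat.exists_eq_two_pow_mul_odd hord
  have hgnQ : g ^ n ∈ D.Q1 := by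
    refine ⟨?_, k, ?_⟩
    · exact ((show Commute g D.J from hgJ).pow_left n).eq
    · rw [← pow_mul, mul_comm, ← hkn, pow_orderOf_eq_one]
  obtain ⟨m, rfl⟩ := hn
  have hdc : ∀ x : G2, d ^ m * x = x * d ^ m := by
    intro x
    obtain ⟨b, hb⟩ := D.scalar_pow hdform m
    exact D.scalar_comm hb x
  have hgpow : g ^ (2 * m + 1) = g * (w ^ m * d ^ m) := by
    have hcwd : Commute w d := (D.scalar_comm hdform w).symm
    rw [pow_succ', pow_mul, pow_two, hgg, hcwd.mul_pow]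
  refine ⟨g ^ (2 * m + 1) * (w ^ m)⁻¹, D.Q1.mul_mem hgnQ (D.Q1.inv_mem (D.Q1.pow_mem hwQ1 m)), (d ^ m)⁻¹, ?_, ?_⟩
  · obtain ⟨b, hb⟩ := D.scalar_pow hdform m
    exact D.inv_scalar hb
  · rw [hgpow]
    have := hdc w
    calc g = g * (w ^ m * d ^ m * ((d ^ m)⁻¹ * (w ^ m)⁻¹)) := by group
      _ = g * ((d ^ m * w ^ m) * ((d ^ m)⁻¹ * (w ^ m)⁻¹)) := by rw [hdc (w ^ m)]
      _ = g * ((w ^ m * d ^ m) * ((w ^ m)⁻¹ * (d ^ m)⁻¹)) := by
        have h1 : (d ^ m)⁻¹ * (w ^ m)⁻¹ = (w ^ m)⁻¹ * (d ^ m)⁻¹ := by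
          rw [← mul_inv_rev, ← mul_inv_rev, hdc (w ^ m)]
        rw [h1, hdc (w ^ m)]
      _ = _ := by group

/-- Every element normalizing `Q` lies in `Q` modulo scalars. -/
theorem normalizer_decomp [Finite G2] {c₀ : G2} (hc₀ : c₀ ∈ D.Q1) (hc₀s : ∀ a : F, D.toM (c₀ * c₀) ≠ a • 1) {g : G2}
    (hg : ∀ s ∈ D.Q, g * s * g⁻¹ ∈ D.Q) :
    ∃ s ∈ D.Q, ∃ c, (∃ a : F, D.toM c = a • 1) ∧ g = s * c := by
  have hc₁c : (g * c₀ * g⁻¹) * (g * c₀ * g⁻¹) = g * (c₀ * c₀) * g⁻¹ := by group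
  have hns : ∀ a : F, D.toM ((g * c₀ * g⁻¹) * (g * c₀ * g⁻¹)) ≠ a • 1 := by
    intro a h
    rw [hc₁c] at h
    exact hc₀s a (D.scalar_conj h)
  have hQ1 : g * c₀ * g⁻¹ ∈ D.Q1 := by
    rcases hg c₀ (D.Q1_le_Q hc₀) with h | h
    · exact h
    · exfalso
      obtain ⟨n, hn⟩ := D.sq_scalar_of_mul_t h.1
      exact hns n hn
  obtain ⟨a', b', hab'⟩ := D.exists_form hQ1.1
  have hb' : b' ≠ 0 := by
    rintro rfl
    rw [zero_smul, add_zero] at hab'
    apply hns (a' * a')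
    rw [map_mul, hab', smul_mul_assoc, one_mul, smul_smul]
  have hYc : (g * D.J * g⁻¹) * (g * c₀ * g⁻¹) = (g * c₀ * g⁻¹) * (g * D.J * g⁻¹) := by
    have h1 := hc₀.1
    calc (g * D.J * g⁻¹) * (g * c₀ * g⁻¹) = g * (D.J * c₀) * g⁻¹ := by group
      _ = g * (c₀ * D.J) * g⁻¹ := by rw [h1]
      _ = _ := by group
  have hYJ : (g * D.J * g⁻¹) * D.J = D.J * (g * D.J * g⁻¹) := by
    apply D.comm_of_matrix
    have h1 := D.toM_comm hYc
    rw [hab'] at h1
    simp only [add_mul, mul_add, smul_mul_assoc, mul_smul_comm, one_mul, mul_one] at h1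
    have h2 := add_left_cancel h1
    exact smul_right_injective _ hb' h2
  obtain ⟨α, β, hαβ⟩ := D.exists_form hYJ
  have hYY : D.toM ((g * D.J * g⁻¹) * (g * D.J * g⁻¹)) = (-1 : F) • 1 := by
    have h1 : (g * D.J * g⁻¹) * (g * D.J * g⁻¹) = g * (D.J * D.J) * g⁻¹ := by group
    rw [h1, ← D.JJ_comm g, mul_assoc, mul_inv_cancel, mul_one, D.toM_JJ]
  rw [D.toM_mul_form hαβ hαβ] at hYY
  have h7 : (α * α - β * β + 1) • (1 : M2 F) + (α * β + β * α) • D.toM D.J = 0 := by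
    have : (α * α - β * β + 1) • (1 : M2 F) + (α * β + β * α) • D.toM D.J =
      ((α * α - β * β) • (1 : M2 F) + (α * β + β * α) • D.toM D.J) + (1 : M2 F) := by module
    rw [this, hYY]
    simp
  obtain ⟨h8, h9⟩ := D.hJi _ _ h7
  have hβ : β ≠ 0 := by
    rintro rfl
    rw [zero_smul, add_zero] at hαβ
    exact D.J_not_scalar α (D.scalar_conj hαβ)
  have hα : α = 0 := by
    have h10 : (2 : F) * α * β = 0 := by linear_combination h9
    exact (mul_eq_zero.mp ((mul_eq_zero.mp h10).resolve_right hβ)).resolve_left D.two_ne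
  subst hα
  have hββ : β * β = 1 := by linear_combination -h8
  rcases mul_self_eq_one_iff.mp hββ with rfl | rfl
  · -- `g` commutes with `J`
    have hgJ : g * D.J * g⁻¹ = D.J := by
      apply D.hinjM
      rw [hαβ]
      simp
    have hgJ' : g * D.J = D.J * g := by
      have h0 : g * D.J = (g * D.J * g⁻¹) * g := by group
      rw [h0, hgJ]
    obtain ⟨s, hs, c, hc, he⟩ := D.normalizer_comm hgJ' hg
    exact ⟨s, D.Q1_le_Q hs, c, hc, he⟩
  · -- `t g` commutes with `J`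
    have h1 : D.toM (D.t * (g * D.J * g⁻¹) * D.t) = (0 : F) • 1 + (- (-1 : F)) • D.toM D.J := D.toM_t_form hαβ
    have hgJ : (D.t * g) * D.J * (D.t * g)⁻¹ = D.J := by
      apply D.hinjM
      have h2 : (D.t * g) * D.J * (D.t * g)⁻¹ = D.t * (g * D.J * g⁻¹) * D.t := by
        rw [mul_inv_rev, D.t_inv]
        group
      rw [h2, h1]
      simp
    have hgJ' : (D.t * g) * D.J = D.J * (D.t * g) := by
      have h0 : (D.t * g) * D.J = ((D.t * g) * D.J * (D.t * g)⁻¹) * (D.t * g) := by group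
      rw [h0, hgJ]
    have hn : ∀ s ∈ D.Q, (D.t * g) * s * (D.t * g)⁻¹ ∈ D.Q := by
      intro s hs
      have h2 : (D.t * g) * s * (D.t * g)⁻¹ = D.t * (g * s * g⁻¹) * D.t := by
        rw [mul_inv_rev, D.t_inv]
        group
      rw [h2]
      exact D.Q.mul_mem (D.Q.mul_mem D.t_mem (hg s hs)) D.t_mem
    obtain ⟨s, hs, c, hc, he⟩ := D.normalizer_comm hgJ' hn
    refine ⟨D.t * s, D.Q.mul_mem D.t_mem (D.Q1_le_Q hs), c, hc, ?_⟩
    have h3 : g = D.t * (D.t * g) := by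
      rw [← mul_assoc, D.ht2, one_mul]
    rw [h3, he]
    group

/-- The image of `Q`. -/
def P : Subgroup Gt := D.Q.map D.ι

theorem ι_mem_P {x : G2} : D.ι x ∈ D.P ↔ x ∈ D.Q := by
  constructor
  · rintro ⟨y, hy, he⟩
    rwa [← D.hinjι he]
  · exact fun h => ⟨x, h, rfl⟩

theorem isPGroup_P : IsPGroup 2 D.P := by
  rintro ⟨_, x, hx, rfl⟩
  obtain ⟨k, hk⟩ := D.mem_Q_pow hx
  refine ⟨k, Subtype.ext ?_⟩
  show (D.ι x) ^ 2 ^ k = 1
  rw [← map_pow, hk, map_one]

theorem exists_invol_pow {G : Type*} [Group G] {x : G} (hne : x ≠ 1) {k : ℕ} (hk : x ^ 2 ^ k = 1) :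
    ∃ j : ℕ, x ^ 2 ^ j ≠ 1 ∧ x ^ 2 ^ j * x ^ 2 ^ j = 1 := by
  induction k with
  | zero => exact absurd (by simpa using hk) hne
  | succ k ih =>
    by_cases h : x ^ 2 ^ k = 1
    · exact ih h
    · refine ⟨k, h, ?_⟩
      rw [← pow_add, ← two_mul, ← pow_succ', hk]

section main

variable [Finite Gt]

theorem finite_G2 (D : Data F G2 Gt) : Finite G2 := Finite.of_injective D.ι D.hinjι

theorem conj_inv_P {g : Gt} (hg : ∀ s ∈ D.P, g * s * g⁻¹ ∈ D.P) : ∀ s ∈ D.P, g⁻¹ * s * g ∈ D.P := by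
  have hk : ∀ k : ℕ, ∀ s ∈ D.P, g ^ k * s * (g ^ k)⁻¹ ∈ D.P := by
    intro k
    induction k with
    | zero => simp
    | succ k ih =>
      intro s hs
      have := ih _ (hg s hs)
      rw [pow_succ]
      convert this using 1
      group
  intro s hs
  have h1 := hk (orderOf g - 1) s hs
  have h2 : g ^ (orderOf g - 1) = g⁻¹ := by
    apply eq_inv_of_mul_eq_one_left
    rw [← pow_succ, Nat.sub_add_cancel (orderOf_pos g), pow_orderOf_eq_one]
  rw [h2, inv_inv] at h1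
  exact h1

/-- An element normalizing `P` lies in the image of `G2`. -/
theorem norm_lift (hcentr : ∀ g : Gt, g * D.ι (D.J * D.J) = D.ι (D.J * D.J) * g → ∃ g₂, D.ι g₂ = g) {g : Gt}
    (hg : ∀ s ∈ D.P, g * s * g⁻¹ ∈ D.P) : ∃ g₂, D.ι g₂ = g ∧ ∀ s ∈ D.Q, g₂ * s * g₂⁻¹ ∈ D.Q := by
  have hJJQ : D.J * D.J ∈ D.Q := D.Q.mul_mem (D.Q1_le_Q D.J_mem) (D.Q1_le_Q D.J_mem)
  obtain ⟨w, hwQ, hw⟩ := hg _ ((D.ι_mem_P).mpr hJJQ)
  have hcomm : ∀ y ∈ D.Q, w * y = y * w := by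
    intro y hy
    apply D.hinjι
    rw [map_mul, map_mul, hw]
    have h1 : g⁻¹ * D.ι y * g ∈ D.P := D.conj_inv_P hg _ (D.ι_mem_P.mpr hy)
    obtain ⟨y', hy', hye⟩ := h1
    have h2 : D.ι y = g * D.ι y' * g⁻¹ := by
      rw [hye]; group
    rw [h2]
    have h3 : D.ι (D.J * D.J) * D.ι y' = D.ι y' * D.ι (D.J * D.J) := by
      rw [← map_mul, ← map_mul, D.JJ_comm]
    calc g * D.ι (D.J * D.J) * g⁻¹ * (g * D.ι y' * g⁻¹) = g * (D.ι (D.J * D.J) * D.ι y') * g⁻¹ := by group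
      _ = g * (D.ι y' * D.ι (D.J * D.J)) * g⁻¹ := by rw [h3]
      _ = _ := by group
  have hww : w * w = 1 := by
    apply D.hinjι
    rw [map_mul, hw, map_one]
    have h1 := congrArg D.ι D.JJ_sq
    rw [map_mul, map_one] at h1
    calc g * D.ι (D.J * D.J) * g⁻¹ * (g * D.ι (D.J * D.J) * g⁻¹) = g * (D.ι (D.J * D.J) * D.ι (D.J * D.J)) * g⁻¹ := by group
      _ = _ := by rw [h1]; group
  have hw1 : w ≠ 1 := by
    rintro rfl
    rw [map_one] at hw
    have h1 : D.ι (D.J * D.J) = 1 := by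
      have : g⁻¹ * (g * D.ι (D.J * D.J) * g⁻¹) * g = g⁻¹ * 1 * g := by rw [← hw]
      simpa [mul_assoc] using this
    have h2 : D.J * D.J = 1 := D.hinjι (by rw [h1, map_one])
    exact D.JJ_ne h2
  have hwJJ : w = D.J * D.J :=
    D.central_invol (hcomm _ (D.Q1_le_Q D.J_mem)) (hcomm _ D.t_mem) hww hw1
  subst hwJJ
  have hgz : g * D.ι (D.J * D.J) = D.ι (D.J * D.J) * g := by
    nth_rewrite 2 [hw]
    group
  obtain ⟨g₂, rfl⟩ := hcentr g hgz
  refine ⟨g₂, rfl, fun s hs => ?_⟩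
  have := hg _ (D.ι_mem_P.mpr hs)
  rw [← map_inv, ← map_mul, ← map_mul] at this
  exact D.ι_mem_P.mp this

/-- The main statement. -/
theorem main (hcentr : ∀ g : Gt, g * D.ι (D.J * D.J) = D.ι (D.J * D.J) * g → ∃ g₂, D.ι g₂ = g)
    {c₀ : G2} (hc₀ : c₀ ∈ D.Q1) (hc₀s : ∀ a : F, D.toM (c₀ * c₀) ≠ a • 1)
    (hconj : ∀ x ∈ D.Q1, (x * D.t) * (x * D.t) = 1 → ∃ g : Gt, g * D.ι (D.J * D.J) * g⁻¹ = D.ι (x * D.t))
    (hfinal : ∀ R : Subgroup Gt, (∀ r ∈ R, ∀ g : Gt, g * r * g⁻¹ ∈ D.P → g * r * g⁻¹ ∈ R) → D.ι D.t ∈ R →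
      (∀ x ∈ D.Q1, (x * D.t) * (x * D.t) = 1 → D.ι x ∈ R) → ∀ x ∈ D.Q1, D.ι x ∈ R)
    (S : Sylow 2 (Gt ⧸ Subgroup.center Gt)) :
    (Cfsg.groupFusionSystem (S : Subgroup (Gt ⧸ Subgroup.center Gt))).IsSimple 2 := by
  haveI : Finite G2 := D.finite_G2
  have hdec : ∀ g : Gt, (∀ s ∈ D.P, g * s * g⁻¹ ∈ D.P) →
      ∃ s ∈ D.Q, ∃ c, (∃ a : F, D.toM c = a • 1) ∧ g = D.ι s * D.ι c := by
    intro g hg
    obtain ⟨g₂, rfl, hg₂⟩ := D.norm_lift hcentr hg
    obtain ⟨s, hs, c, hc, rfl⟩ := D.normalizer_decomp hc₀ hc₀s hg₂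
    exact ⟨s, hs, c, hc, map_mul _ _ _⟩
  obtain ⟨S₀, hS₀⟩ := exists_sylow_eq_of_normalizer 2 D.P D.isPGroup_P (by
    rintro g hg ⟨k, hk⟩
    obtain ⟨s, hs, c, ⟨a, ha⟩, rfl⟩ := hdec g hg
    rw [← map_mul] at hk ⊢
    have hk' : (s * c) ^ 2 ^ k = 1 := D.hinjι (by rw [map_pow, hk, map_one])
    refine D.ι_mem_P.mpr (D.Q.mul_mem hs (D.Q1_le_Q ⟨D.scalar_comm ha _, ?_⟩))
    obtain ⟨l, hl⟩ := D.mem_Q_pow hs
    refine ⟨k + l, ?_⟩
    have hcs : Commute s c := (D.scalar_comm ha s).symm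
    rw [hcs.mul_pow] at hk'
    have h1 : s ^ 2 ^ (k + l) = 1 := by
      rw [pow_add, mul_comm, pow_mul, hl, one_pow]
    have h2 : (s ^ 2 ^ k * c ^ 2 ^ k) ^ 2 ^ l = 1 := by rw [hk', one_pow]
    have hcs' : Commute (s ^ 2 ^ k) (c ^ 2 ^ k) := hcs.pow_pow _ _
    rw [hcs'.mul_pow, ← pow_mul, ← pow_mul, ← pow_add, h1, one_mul] at h2
    exact h2)
  have hJJQ : D.J * D.J ∈ D.Q := D.Q.mul_mem (D.Q1_le_Q D.J_mem) (D.Q1_le_Q D.J_mem)
  -- central involutions
  have hinv : ∀ w₁ ∈ D.Q, w₁ ≠ 1 → (∀ y ∈ D.Q, w₁ * y = y * w₁) → ∃ j : ℕ, w₁ ^ 2 ^ j = D.J * D.J := by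
    intro w₁ hw₁ hne hc
    obtain ⟨k, hk⟩ := D.mem_Q_pow hw₁
    obtain ⟨j, hj1, hj2⟩ := exists_invol_pow hne hk
    refine ⟨j, D.central_invol ?_ ?_ hj2 hj1⟩
    · exact ((show Commute w₁ D.J from hc _ (D.Q1_le_Q D.J_mem)).pow_left _).eq
    · exact ((show Commute w₁ D.t from hc _ D.t_mem).pow_left _).eq
  refine Cfsg.Agent.Lib.FusionNormCent.isSimple_center_quot 2 S₀ ?_ ?_ ?_ ?_ S
  · rw [hS₀]
    intro hb
    have h1 : D.ι (D.J * D.J) ∈ D.P := D.ι_mem_P.mpr hJJQ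
    rw [hb, Subgroup.mem_bot] at h1
    exact D.JJ_ne (D.hinjι (by rw [h1, map_one]))
  · rw [hS₀]
    rintro _ ⟨w₁, hw₁, rfl⟩ hcen
    by_contra hne
    have hne' : w₁ ≠ 1 := by
      rintro rfl
      exact hne (map_one _)
    obtain ⟨j, hj⟩ := hinv w₁ hw₁ hne' (fun y hy => by
      apply D.hinjι
      rw [map_mul, map_mul]
      exact (hcen _).symm)
    have hz : ∀ g : Gt, g * D.ι (D.J * D.J) = D.ι (D.J * D.J) * g := by
      intro g
      rw [← hj, map_pow]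
      exact ((show Commute g (D.ι w₁) from hcen g).pow_right _).eq
    obtain ⟨g, hg⟩ := hconj 1 D.Q1.one_mem (by rw [one_mul, D.ht2])
    rw [hz g, mul_assoc, mul_inv_cancel, mul_one, one_mul] at hg
    have h1 : D.J * D.J = D.t := D.hinjι hg
    apply D.t_not_comm
    rw [← h1]
    group
  · rw [hS₀]
    intro R hR hRc
    by_cases hRb : R = ⊥
    · exact Or.inl hRb
    refine Or.inr (le_antisymm hR ?_)
    haveI hnorm : (R.subgroupOf D.P).Normal := by
      refine ⟨fun r hr p => ?_⟩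
      rw [Subgroup.mem_subgroupOf] at hr ⊢
      exact hRc _ hr _ (D.P.mul_mem (D.P.mul_mem p.2 (hR hr)) (D.P.inv_mem p.2))
    have hne' : R.subgroupOf D.P ≠ ⊥ := by
      intro hb
      apply hRb
      rw [eq_bot_iff]
      intro x hx
      have : (⟨x, hR hx⟩ : D.P) ∈ R.subgroupOf D.P := hx
      rw [hb, Subgroup.mem_bot] at this
      rw [Subgroup.mem_bot]
      exact congrArg Subtype.val this
    obtain ⟨⟨_, w₁, hw₁, rfl⟩, hzR, hz1, hzc⟩ :=
      Cfsg.Agent.Lib.PuigBasic.exists_mem_center_of_normal D.isPGroup_P (R.subgroupOf D.P) hne'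
    have hwR : D.ι w₁ ∈ R := hzR
    have hne1 : w₁ ≠ 1 := by
      rintro rfl
      apply hz1
      exact Subtype.ext (map_one _)
    obtain ⟨j, hj⟩ := hinv w₁ hw₁ hne1 (fun y hy => by
      apply D.hinjι
      have h1 := congrArg Subtype.val ((Subgroup.mem_center_iff.mp hzc) ⟨D.ι y, D.ι_mem_P.mpr hy⟩)
      rw [map_mul, map_mul]
      exact h1.symm)
    have hzR' : D.ι (D.J * D.J) ∈ R := by
      rw [← hj, map_pow]
      exact R.pow_mem hwR _
    have hinvR : ∀ x ∈ D.Q1, (x * D.t) * (x * D.t) = 1 → D.ι (x * D.t) ∈ R := by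
      intro x hx hxx
      obtain ⟨g, hg⟩ := hconj x hx hxx
      rw [← hg]
      apply hRc _ hzR'
      rw [hg]
      apply D.ι_mem_P.mpr
      exact D.Q.mul_mem (D.Q1_le_Q hx) D.t_mem
    have htR : D.ι D.t ∈ R := by
      have := hinvR 1 D.Q1.one_mem (by rw [one_mul, D.ht2])
      rwa [one_mul] at this
    have hxR : ∀ x ∈ D.Q1, (x * D.t) * (x * D.t) = 1 → D.ι x ∈ R := by
      intro x hx hxx
      have h1 := R.mul_mem (hinvR x hx hxx) htR
      rw [← map_mul, mul_assoc, D.ht2, mul_one] at h1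
      exact h1
    have hall := hfinal R hRc htR hxR
    rintro _ ⟨y, hy | hy, rfl⟩
    · exact hall y hy
    · have h1 := R.mul_mem (hall _ hy) htR
      rw [← map_mul, mul_assoc, D.ht2, mul_one] at h1
      exact h1
  · rw [hS₀]
    intro g hg
    obtain ⟨s, hs, c, ⟨a, ha⟩, rfl⟩ := hdec g hg
    refine ⟨D.ι s, D.ι_mem_P.mpr hs, D.ι c, ?_, rfl⟩
    rintro _ ⟨y, -, rfl⟩
    rw [← map_mul, ← map_mul, D.scalar_comm ha y]

end main

end Data

end Cfsg.Agent.Lib.Rk2Frame
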