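import Mathlib
import Cfsg.Agent.Lib.Rk2Frame

set_option autoImplicit false

/-!
# Rank two centralizers: the split and the non-split model inside `3 × 3` matrices
-/

namespace Cfsg.Agent.Lib.Rk2Frame

variable {F : Type*} [Field F]

/-- Block matrices. -/
def blk (A : Matrix (Fin 2) (Fin 2) F) (d : F) : Matrix (Fin 3) (Fin 3) F :=
  !![A 0 0, A 0 1, 0; A 1 0, A 1 1, 0; 0, 0, d]

theorem blk_mul (A B : Matrix (Fin 2) (Fin 2) F) (d e : F) : blk A d * blk B e = blk (A * B) (d * e) := by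
  ext i j
  fin_cases i <;> fin_cases j <;> simp [blk, Matrix.mul_apply, Fin.sum_univ_succ]

theorem det_blk (A : Matrix (Fin 2) (Fin 2) F) (d : F) : (blk A d).det = A.det * d := by
  rw [blk, Matrix.det_fin_three, Matrix.det_fin_two]
  simp
  ring

theorem blk_inj {A B : Matrix (Fin 2) (Fin 2) F} {d e : F} (h : blk A d = blk B e) : A = B := by
  ext i j
  have := congrFun (congrFun h (Fin.castLE (by norm_num) i)) (Fin.castLE (by norm_num) j)
  fin_cases i <;> fin_cases j <;> simpa [blk] using this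

/-- The scaffolding shared by the models. -/
structure Lvl2 (F G2 Gt : Type*) [Field F] [Group G2] [Group Gt] where
  toM : G2 →* Matrix (Fin 2) (Fin 2) F
  toM3 : Gt →* Matrix (Fin 3) (Fin 3) F
  ι : G2 →* Gt
  hinjM : Function.Injective toM
  hinjM3 : Function.Injective toM3
  two_ne : (2 : F) ≠ 0
  hι : ∀ g, toM3 (ι g) = blk (toM g) ((toM g).det)⁻¹
  p13 : Gt
  p23 : Gt
  hp13 : toM3 p13 = !![0, 0, -1; 0, 1, 0; 1, 0, 0]
  hp23 : toM3 p23 = !![-1, 0, 0; 0, 0, 1; 0, 1, 0]
  hcentr : ∀ g : Gt, toM3 g * !![-1, 0, 0; 0, -1, 0; 0, 0, 1] = !![-1, 0, 0; 0, -1, 0; 0, 0, 1] * toM3 g →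
    ∃ g₂, ι g₂ = g

namespace Lvl2

variable {G2 Gt : Type*} [Group G2] [Group Gt] (L : Lvl2 F G2 Gt)

theorem hinjι : Function.Injective L.ι := by
  intro a b h
  apply L.hinjM
  have h1 := congrArg L.toM3 h
  rw [L.hι, L.hι] at h1
  exact blk_inj h1

theorem toM3_zz {x : G2} (hx : L.toM x = -1) : L.toM3 (L.ι x) = !![-1, 0, 0; 0, -1, 0; 0, 0, 1] := by
  rw [L.hι, hx]
  ext i j
  fin_cases i <;> fin_cases j <;> simp [blk, Matrix.det_fin_two]

/-! ### Non-split model -/

section nonsplit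

variable (J t : G2) (hJ : L.toM J = !![0, -1; 1, 0]) (ht : L.toM t = !![1, 0; 0, -1])

include hJ ht in
/-- The data of the non-split model. -/
def nsData : Data F G2 Gt where
  toM := L.toM
  ι := L.ι
  J := J
  t := t
  hinjM := L.hinjM
  hinjι := L.hinjι
  two_ne := L.two_ne
  hJ2 := by
    rw [hJ]
    ext i j
    fin_cases i <;> fin_cases j <;> simp [Matrix.mul_apply, Fin.sum_univ_succ]
  ht2 := by
    apply L.hinjM
    rw [map_mul, ht, map_one]
    ext i j
    fin_cases i <;> fin_cases j <;> simp [Matrix.mul_apply, Fin.sum_univ_succ]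
  htJ := by
    rw [hJ, ht]
    ext i j
    fin_cases i <;> fin_cases j <;> simp [Matrix.mul_apply, Fin.sum_univ_succ]
  hJc := by
    intro w hw
    rw [hJ] at hw ⊢
    have h01 := congrFun (congrFun hw 0) 1
    have h00 := congrFun (congrFun hw 0) 0
    simp [Matrix.mul_apply, Fin.sum_univ_succ] at h00 h01
    refine ⟨w 0 0, w 1 0, ?_⟩
    ext i j
    fin_cases i <;> fin_cases j <;> simp [Matrix.mul_apply, Fin.sum_univ_succ, h00, h01]
  hJi := by
    intro a b h
    rw [hJ] at h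
    have h00 := congrFun (congrFun h 0) 0
    have h10 := congrFun (congrFun h 1) 0
    simp at h00 h10
    exact ⟨h00, h10⟩


theorem toM_inv_of_right {y : G2} {M : Matrix (Fin 2) (Fin 2) F} (h : L.toM y * M = 1) : L.toM y⁻¹ = M := by
  have h1 : L.toM y⁻¹ * L.toM y = 1 := by rw [← map_mul, inv_mul_cancel, map_one]
  calc L.toM y⁻¹ = L.toM y⁻¹ * (L.toM y * M) := by rw [h, mul_one]
    _ = (L.toM y⁻¹ * L.toM y) * M := by rw [mul_assoc]
    _ = M := by rw [h1, one_mul]

theorem p13_conj {x t₀ : G2} (hx : L.toM x = -1) (ht₀ : L.toM t₀ = !![1, 0; 0, -1]) :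
    L.p13 * L.ι x * L.p13⁻¹ = L.ι t₀ := by
  have h1 : L.p13 * L.ι x = L.ι t₀ * L.p13 := by
    apply L.hinjM3
    rw [map_mul, map_mul, L.toM3_zz hx, L.hι, ht₀, L.hp13]
    ext i j
    fin_cases i <;> fin_cases j <;> simp [blk, Matrix.mul_apply, Fin.sum_univ_succ, Matrix.det_fin_two]
  rw [h1]
  group

/-- The main statement for the non-split model. -/
theorem nonsplit {κ : F} (hκ : 2 * κ * κ = 1 ∨ 2 * κ * κ = -1) {c₀ : G2} (hc₀ : L.toM c₀ = !![κ, -κ; κ, κ])
    (hH90 : ∀ x ∈ (L.nsData J t hJ ht).Q1, x * t * (x * t) = 1 → ∃ r : G2, r * t * r⁻¹ = x * t)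
    (hJconj : ∀ x ∈ (L.nsData J t hJ ht).Q1, L.toM (x * t * (x * t)) = -1 → ∃ r : G2, r * J * r⁻¹ = x * t)
    (h2 : ∀ n : F, (∃ k : ℕ, n ^ 2 ^ k = 1) → (∃ w : G2, L.toM w = n • 1) → n * n = 1)
    (S : Sylow 2 (Gt ⧸ Subgroup.center Gt)) [Finite Gt] :
    (Cfsg.groupFusionSystem (S : Subgroup (Gt ⧸ Subgroup.center Gt))).IsSimple 2 := by
  set D := L.nsData J t hJ ht with hD
  have hDt : D.t = t := rfl
  have hDJ : D.J = J := rfl
  have hDι : D.ι = L.ι := rfl
  have hDM : D.toM = L.toM := rfl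
  have hJJ : L.toM (J * J) = -1 := by
    rw [map_mul]
    exact D.hJ2
  have hκ2 : (2 * κ * κ) * (2 * κ * κ) = 1 := by
    rcases hκ with h | h <;> rw [h] <;> norm_num
  have hκ0 : 2 * κ * κ ≠ 0 := by
    intro h
    rw [h] at hκ2
    simp at hκ2
  have hcc : L.toM (c₀ * c₀) = !![0, -(2 * κ * κ); 2 * κ * κ, 0] := by
    rw [map_mul, hc₀]
    ext i j
    fin_cases i <;> fin_cases j <;> simp [Matrix.mul_apply, Fin.sum_univ_succ] <;> ring
  refine D.main ?_ (c₀ := c₀) ?_ ?_ ?_ ?_ S
  · intro g hg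
    apply L.hcentr
    have h1 : L.toM3 (g * L.ι (J * J)) = L.toM3 (L.ι (J * J) * g) := congrArg L.toM3 hg
    rw [map_mul L.toM3, map_mul L.toM3, L.toM3_zz hJJ] at h1
    exact h1
  · refine ⟨?_, 3, ?_⟩
    · rw [hDJ]
      apply L.hinjM
      rw [map_mul, map_mul, hc₀, hJ]
      ext i j
      fin_cases i <;> fin_cases j <;> simp [Matrix.mul_apply, Fin.sum_univ_succ]
    · apply L.hinjM
      have h3 : c₀ ^ 2 ^ 3 = (c₀ * c₀) * (c₀ * c₀) * ((c₀ * c₀) * (c₀ * c₀)) := by
        simp [pow_succ, mul_assoc]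
      have h4 : L.toM ((c₀ * c₀) * (c₀ * c₀)) = -1 := by
        rw [map_mul, hcc]
        ext i j
        fin_cases i <;> fin_cases j <;> simp [Matrix.mul_apply, Fin.sum_univ_succ]
        · linear_combination hκ2
        · linear_combination hκ2
      rw [h3, map_mul, h4, map_one]
      simp
  · intro a ha
    rw [hDM] at ha
    rw [hcc] at ha
    have h5 := congrFun (congrFun ha 1) 0
    simp at h5
    apply hκ0
    rcases h5 with h | h <;> simp [h]
  · intro x hx hxx
    obtain ⟨r, hr⟩ := hH90 x hx hxx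
    refine ⟨L.ι r * L.p13, ?_⟩
    have h3 := L.p13_conj hJJ ht
    have h4 : D.ι (D.J * D.J) = L.ι (J * J) := rfl
    rw [h4, mul_inv_rev]
    calc L.ι r * L.p13 * L.ι (J * J) * (L.p13⁻¹ * (L.ι r)⁻¹) = L.ι r * (L.p13 * L.ι (J * J) * L.p13⁻¹) * (L.ι r)⁻¹ := by group
      _ = L.ι r * L.ι t * (L.ι r)⁻¹ := by rw [h3]
      _ = L.ι (r * t * r⁻¹) := by rw [map_mul, map_mul, map_inv]
      _ = _ := by rw [hr]; rfl
  · intro R hRc htR hxR x hx
    have hxtQ : x * D.t ∈ D.Q := D.Q.mul_mem (D.Q1_le_Q hx) D.t_mem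
    have hxtt : x * D.t * D.t = x := by rw [mul_assoc, D.ht2, mul_one]
    obtain ⟨n, hn⟩ := D.sq_scalar_of_mul_t (x := x * D.t) (by
      rw [hxtt]
      exact hx.1)
    have hn2 : n * n = 1 := by
      apply h2 n
      · obtain ⟨k, hk⟩ := D.mem_Q_pow hxtQ
        refine ⟨k, ?_⟩
        have h3 : ((x * D.t) * (x * D.t)) ^ 2 ^ k = 1 := by
          rw [← pow_two, ← pow_mul, mul_comm, pow_mul, hk, one_pow]
        have h4 := congrArg D.toM h3
        rw [map_pow, hn, map_one, smul_pow, one_pow] at h4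
        have h5 := congrFun (congrFun h4 0) 0
        simpa using h5
      · exact ⟨_, hn⟩
    have hxtR : D.ι (x * D.t) ∈ R → D.ι x ∈ R := by
      intro h
      have h1 := R.mul_mem h htR
      rw [← map_mul, hxtt] at h1
      exact h1
    rcases mul_self_eq_one_iff.mp hn2 with rfl | rfl
    · apply hxR x hx
      apply D.hinjM
      rw [hn, one_smul, map_one]
    · apply hxtR
      obtain ⟨r, hr⟩ := hJconj x hx (by
        have h3 : L.toM (x * t * (x * t)) = (-1 : F) • 1 := hn
        rw [h3]; simp)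
      have hJR : D.ι D.J ∈ R := by
        apply hxR D.J D.J_mem
        apply D.hinjM
        rw [hDJ, hDt, hDM, map_mul, map_mul, hJ, ht, map_one]
        ext i j
        fin_cases i <;> fin_cases j <;> simp [Matrix.mul_apply, Fin.sum_univ_succ]
      have h3 := hRc _ hJR (L.ι r) (by
        have h4 : L.ι r * D.ι D.J * (L.ι r)⁻¹ = D.ι (x * D.t) := by
          have hr' : r * J * r⁻¹ = x * D.t := hr
          rw [← hr']
          show L.ι r * L.ι J * (L.ι r)⁻¹ = L.ι (r * J * r⁻¹)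
          rw [map_mul, map_mul, map_inv]
        rw [h4]
        exact D.ι_mem_P.mpr hxtQ)
      have h4 : L.ι r * D.ι D.J * (L.ι r)⁻¹ = D.ι (x * D.t) := by
        have hr' : r * J * r⁻¹ = x * D.t := hr
        rw [← hr']
        show L.ι r * L.ι J * (L.ι r)⁻¹ = L.ι (r * J * r⁻¹)
        rw [map_mul, map_mul, map_inv]
      rwa [h4] at h3

end nonsplit

/-! ### Split model -/

section split

variable (J t : G2) {i : F} (hi : i * i = -1) (hJ : L.toM J = !![i, 0; 0, -i]) (ht : L.toM t = !![0, 1; 1, 0])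

include hi in
theorem i_ne : i ≠ 0 := by
  rintro rfl
  simp at hi

include hi in
/-- The data of the split model. -/
def sData (hJ : L.toM J = !![i, 0; 0, -i]) (ht : L.toM t = !![0, 1; 1, 0]) : Data F G2 Gt where
  toM := L.toM
  ι := L.ι
  J := J
  t := t
  hinjM := L.hinjM
  hinjι := L.hinjι
  two_ne := L.two_ne
  hJ2 := by
    rw [hJ]
    ext k j
    fin_cases k <;> fin_cases j <;> simp [Matrix.mul_apply, Fin.sum_univ_succ, hi]
  ht2 := by
    apply L.hinjM
    rw [map_mul, ht, map_one]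
    ext i j
    fin_cases i <;> fin_cases j <;> simp [Matrix.mul_apply, Fin.sum_univ_succ]
  htJ := by
    rw [hJ, ht]
    ext i j
    fin_cases i <;> fin_cases j <;> simp [Matrix.mul_apply, Fin.sum_univ_succ]
  hJc := by
    intro w hw
    rw [hJ] at hw ⊢
    have hi0 : i ≠ 0 := i_ne hi
    have h2 := L.two_ne
    have h01 := congrFun (congrFun hw 0) 1
    have h10 := congrFun (congrFun hw 1) 0
    simp [Matrix.mul_apply, Fin.sum_univ_succ] at h01 h10
    have h01' : w 0 1 = 0 := by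
      have : (2 * i) * w 0 1 = 0 := by linear_combination -h01
      exact (mul_eq_zero.mp this).resolve_left (mul_ne_zero h2 hi0)
    have h10' : w 1 0 = 0 := by
      have : (2 * i) * w 1 0 = 0 := by linear_combination h10
      exact (mul_eq_zero.mp this).resolve_left (mul_ne_zero h2 hi0)
    refine ⟨(w 0 0 + w 1 1) / 2, (w 0 0 - w 1 1) / (2 * i), ?_⟩
    ext k j
    fin_cases k <;> fin_cases j <;> simp [Matrix.mul_apply, Fin.sum_univ_succ, h01', h10'] <;> field_simp <;> ring
  hJi := by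
    intro a b h
    rw [hJ] at h
    have hi0 : i ≠ 0 := i_ne hi
    have h2 := L.two_ne
    have h00 := congrFun (congrFun h 0) 0
    have h11 := congrFun (congrFun h 1) 1
    simp at h00 h11
    have ha : 2 * a = 0 := by linear_combination h00 + h11
    have hb : (2 * i) * b = 0 := by linear_combination h00 - h11
    exact ⟨(mul_eq_zero.mp ha).resolve_left h2, (mul_eq_zero.mp hb).resolve_left (mul_ne_zero h2 hi0)⟩

include hi hJ ht in
/-- The main statement for the split model. -/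
theorem split (hdiag : ∀ x : G2, ∀ a b : F, L.toM x = !![a, 0; 0, b] → ∃ y : G2, L.toM y = !![a, 0; 0, 1])
    (t₀ r₀ : G2) (ht₀ : L.toM t₀ = !![1, 0; 0, -1]) (hr₀ : r₀ * t₀ * r₀⁻¹ = t)
    (S : Sylow 2 (Gt ⧸ Subgroup.center Gt)) [Finite Gt] :
    (Cfsg.groupFusionSystem (S : Subgroup (Gt ⧸ Subgroup.center Gt))).IsSimple 2 := by
  set D := L.sData J t hi hJ ht with hD
  have hDt : D.t = t := rfl
  have hDJ : D.J = J := rfl
  have hDι : D.ι = L.ι := rfl
  have hDM : D.toM = L.toM := rfl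
  have hJJ : L.toM (J * J) = -1 := by
    rw [map_mul]
    exact D.hJ2
  have hi0 : i ≠ 0 := i_ne hi
  have h2ne := L.two_ne
  -- elements commuting with `J` are diagonal
  have hdg : ∀ x : G2, x * D.J = D.J * x → L.toM x = !![L.toM x 0 0, 0; 0, L.toM x 1 1] := by
    intro x hx
    have hw := D.toM_comm hx
    rw [hDJ, hDM, hJ] at hw
    have h01 := congrFun (congrFun hw 0) 1
    have h10 := congrFun (congrFun hw 1) 0
    simp [Matrix.mul_apply, Fin.sum_univ_succ] at h01 h10
    have h01' : L.toM x 0 1 = 0 := by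
      have : (2 * i) * L.toM x 0 1 = 0 := by linear_combination -h01
      exact (mul_eq_zero.mp this).resolve_left (mul_ne_zero h2ne hi0)
    have h10' : L.toM x 1 0 = 0 := by
      have : (2 * i) * L.toM x 1 0 = 0 := by linear_combination h10
      exact (mul_eq_zero.mp this).resolve_left (mul_ne_zero h2ne hi0)
    ext k j
    fin_cases k <;> fin_cases j <;> simp [h01', h10']
  have hcommdiag : ∀ (y : G2) (a b : F), L.toM y = !![a, 0; 0, b] → y * D.J = D.J * y := by
    intro y a b hy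
    apply D.comm_of_matrix
    rw [hDJ, hDM, hy, hJ]
    ext k j
    fin_cases k <;> fin_cases j <;> simp [Matrix.mul_apply, Fin.sum_univ_succ, mul_comm]
  have hdpow : ∀ (y : G2) (a b : F), L.toM y = !![a, 0; 0, b] → ∀ n : ℕ, L.toM (y ^ n) = !![a ^ n, 0; 0, b ^ n] := by
    intro y a b hy n
    induction n with
    | zero =>
      rw [pow_zero, map_one]
      ext k j
      fin_cases k <;> fin_cases j <;> simp
    | succ n ih =>
      rw [pow_succ, map_mul, ih, hy]
      ext k j
      fin_cases k <;> fin_cases j <;> simp [Matrix.mul_apply, Fin.sum_univ_succ, pow_succ]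
  obtain ⟨c₀, hc₀⟩ := hdiag J i (-i) hJ
  refine D.main ?_ (c₀ := c₀) ?_ ?_ ?_ ?_ S
  · intro g hg
    apply L.hcentr
    have h1 : L.toM3 (g * L.ι (J * J)) = L.toM3 (L.ι (J * J) * g) := congrArg L.toM3 hg
    rw [map_mul L.toM3, map_mul L.toM3, L.toM3_zz hJJ] at h1
    exact h1
  · refine ⟨hcommdiag _ _ _ hc₀, 2, ?_⟩
    apply L.hinjM
    rw [hdpow c₀ i 1 hc₀, map_one]
    have h4 : i ^ 2 ^ 2 = 1 := by
      have : i ^ 2 ^ 2 = (i * i) * (i * i) := by ring
      rw [this, hi]; norm_num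
    rw [h4]
    ext k j
    fin_cases k <;> fin_cases j <;> simp
  · intro a ha
    rw [hDM, map_mul, hc₀] at ha
    have h5 := congrFun (congrFun ha 0) 0
    have h6 := congrFun (congrFun ha 1) 1
    simp [Matrix.mul_apply, Fin.sum_univ_succ, hi] at h5 h6
    apply h2ne
    linear_combination h6 - h5
  · intro x hx hxx
    have hxd := hdg x hx.1
    set a := L.toM x 0 0 with ha
    set b := L.toM x 1 1 with hb
    obtain ⟨y, hy⟩ := hdiag x a b hxd
    have hab : a * b = 1 := by
      have h1 := congrArg L.toM hxx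
      have hDt' : x * D.t * (x * D.t) = x * t * (x * t) := rfl
      rw [hDt', map_mul, map_mul, hxd, ht, map_one] at h1
      have h5 := congrFun (congrFun h1 0) 0
      simpa [Matrix.mul_apply, Fin.sum_univ_succ] using h5
    have hyt : y * t = (x * t) * y := by
      apply L.hinjM
      rw [map_mul, map_mul, map_mul, hy, hxd, ht]
      ext k j
      fin_cases k <;> fin_cases j <;> simp [Matrix.mul_apply, Fin.sum_univ_succ]
      · rw [mul_comm]; exact hab.symm
    refine ⟨L.ι y * L.ι r₀ * L.p13, ?_⟩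
    have h3 := L.p13_conj hJJ ht₀
    have h4 : D.ι (D.J * D.J) = L.ι (J * J) := rfl
    have h5 : D.ι (x * D.t) = L.ι (y * t * y⁻¹) := by
      rw [hyt]
      show L.ι (x * t) = _
      congr 1
      group
    rw [h4, h5]
    calc L.ι y * L.ι r₀ * L.p13 * L.ι (J * J) * (L.ι y * L.ι r₀ * L.p13)⁻¹
        = L.ι y * L.ι r₀ * (L.p13 * L.ι (J * J) * L.p13⁻¹) * (L.ι r₀)⁻¹ * (L.ι y)⁻¹ := by group
      _ = L.ι y * (L.ι r₀ * L.ι t₀ * (L.ι r₀)⁻¹) * (L.ι y)⁻¹ := by rw [h3]; group
      _ = L.ι y * L.ι (r₀ * t₀ * r₀⁻¹) * (L.ι y)⁻¹ := by rw [map_mul, map_mul, map_inv]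
      _ = _ := by rw [hr₀, map_mul, map_mul, map_inv]
  · intro R hRc htR hxR
    have hkey : ∀ x ∈ D.Q1, ∃ y ∈ D.Q1, L.toM y = !![L.toM x 0 0, 0; 0, 1] ∧ D.ι y ∈ R := by
      intro x hx
      have hxd := hdg x hx.1
      set a := L.toM x 0 0 with ha
      set b := L.toM x 1 1 with hb
      obtain ⟨y, hy⟩ := hdiag x a b hxd
      obtain ⟨k, hk⟩ := hx.2
      have hak : a ^ 2 ^ k = 1 := by
        have h1 := congrArg L.toM hk
        rw [hdpow x a b hxd, map_one] at h1
        have h5 := congrFun (congrFun h1 0) 0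
        simpa using h5
      have hyQ : y ∈ D.Q1 := by
        refine ⟨hcommdiag _ _ _ hy, k, ?_⟩
        apply L.hinjM
        rw [hdpow y a 1 hy, map_one, hak, one_pow]
        ext k j
        fin_cases k <;> fin_cases j <;> simp
      have ha0 : a ≠ 0 := by
        rintro h
        rw [h, zero_pow (by positivity)] at hak
        exact zero_ne_one hak
      refine ⟨y, hyQ, hy, ?_⟩
      have hyinv : L.toM y⁻¹ = !![a⁻¹, 0; 0, 1] := by
        apply L.toM_inv_of_right
        rw [hy]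
        ext k j
        fin_cases k <;> fin_cases j <;> simp [Matrix.mul_apply, Fin.sum_univ_succ, ha0]
      set e := y * (D.t * y⁻¹ * D.t) with he
      have heQ : e ∈ D.Q1 := D.Q1.mul_mem hyQ (D.t_conj_mem (D.Q1.inv_mem hyQ))
      have hem : L.toM e = !![a, 0; 0, a⁻¹] := by
        rw [he]
        show L.toM (y * (t * y⁻¹ * t)) = _
        rw [map_mul, map_mul, map_mul, hy, hyinv, ht]
        ext k j
        fin_cases k <;> fin_cases j <;> simp [Matrix.mul_apply, Fin.sum_univ_succ]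
      have heR : D.ι e ∈ R := by
        apply hxR e heQ
        apply L.hinjM
        show L.toM (e * t * (e * t)) = _
        rw [map_mul, map_mul, hem, ht, map_one]
        ext k j
        fin_cases k <;> fin_cases j <;> simp [Matrix.mul_apply, Fin.sum_univ_succ, ha0]
      have hconj : L.p23 * D.ι e * L.p23⁻¹ = D.ι y := by
        have h1 : L.p23 * D.ι e = D.ι y * L.p23 := by
          apply L.hinjM3
          show L.toM3 (L.p23 * L.ι e) = L.toM3 (L.ι y * L.p23)
          rw [map_mul L.toM3, map_mul L.toM3, L.hι, L.hι, hem, hy, L.hp23]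
          ext k j
          fin_cases k <;> fin_cases j <;> simp [blk, Matrix.mul_apply, Fin.sum_univ_succ, Matrix.det_fin_two, ha0]
        rw [h1]
        group
      have h3 := hRc _ heR L.p23 (by
        rw [hconj]
        exact D.ι_mem_P.mpr (D.Q1_le_Q hyQ))
      rwa [hconj] at h3
    intro x hx
    have hxd := hdg x hx.1
    obtain ⟨y₁, hy₁, hy₁m, hy₁R⟩ := hkey x hx
    obtain ⟨y₂, hy₂, hy₂m, hy₂R⟩ := hkey _ (D.t_conj_mem hx)
    have hx22 : L.toM (D.t * x * D.t) 0 0 = L.toM x 1 1 := by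
      show L.toM (t * x * t) 0 0 = _
      rw [map_mul, map_mul, ht]
      simp [Matrix.mul_apply, Fin.sum_univ_succ, Matrix.vecMul, dotProduct]
    rw [hx22] at hy₂m
    have hxe : x = y₁ * (D.t * y₂ * D.t) := by
      apply L.hinjM
      show L.toM x = L.toM (y₁ * (t * y₂ * t))
      rw [map_mul, map_mul, map_mul, hy₁m, hy₂m, ht]
      nth_rewrite 1 [hxd]
      ext k j
      fin_cases k <;> fin_cases j <;> simp [Matrix.mul_apply, Fin.sum_univ_succ]
    rw [hxe, map_mul, map_mul, map_mul]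
    exact R.mul_mem hy₁R (R.mul_mem (R.mul_mem htR hy₂R) htR)

end split

end Lvl2

end Cfsg.Agent.Lib.Rk2Frame
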