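import Mathlib
import Cfsg.Prelude.Def_Classical
import Cfsg.Agent.Lib.Rk2Frame2

set_option autoImplicit false

/-!
# The 2-fusion system of `PSL₃(F)`, `|F|` odd
-/

namespace Cfsg.Agent.Lib.L3Fus

open Cfsg.Agent.Lib.Rk2Frame

variable {F : Type*} [Field F]

theorem blk_of_comm (h2 : (2 : F) ≠ 0) {M : Matrix (Fin 3) (Fin 3) F}
    (h : M * !![-1, 0, 0; 0, -1, 0; 0, 0, 1] = !![-1, 0, 0; 0, -1, 0; 0, 0, 1] * M) :
    M = blk !![M 0 0, M 0 1; M 1 0, M 1 1] (M 2 2) := by
  have h02 := congrFun (congrFun h 0) 2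
  have h12 := congrFun (congrFun h 1) 2
  have h20 := congrFun (congrFun h 2) 0
  have h21 := congrFun (congrFun h 2) 1
  simp [Matrix.mul_apply, Fin.sum_univ_succ] at h02 h12 h20 h21
  have h02' : M 0 2 = 0 := by
    have : 2 * M 0 2 = 0 := by linear_combination h02
    exact (mul_eq_zero.mp this).resolve_left h2
  have h12' : M 1 2 = 0 := by
    have : 2 * M 1 2 = 0 := by linear_combination h12
    exact (mul_eq_zero.mp this).resolve_left h2
  have h20' : M 2 0 = 0 := by
    have : 2 * M 2 0 = 0 := by linear_combination -h20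
    exact (mul_eq_zero.mp this).resolve_left h2
  have h21' : M 2 1 = 0 := by
    have : 2 * M 2 1 = 0 := by linear_combination -h21
    exact (mul_eq_zero.mp this).resolve_left h2
  ext i j
  fin_cases i <;> fin_cases j <;> simp [blk, h02', h12', h20', h21']

/-- Elements of `GL₂` from a matrix. -/
noncomputable def mk2 (a b c d : F) (h : a * d - b * c ≠ 0) : GL (Fin 2) F :=
  Matrix.GeneralLinearGroup.mkOfDetNeZero !![a, b; c, d] (by
    rw [Matrix.det_fin_two_of]
    exact h)

@[simp] theorem coe_mk2 (a b c d : F) (h : a * d - b * c ≠ 0) : ((mk2 a b c d h : GL (Fin 2) F) : Matrix (Fin 2) (Fin 2) F) = !![a, b; c, d] := rfl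

/-- The embedding. -/
noncomputable def ιL : GL (Fin 2) F →* Matrix.SpecialLinearGroup (Fin 3) F where
  toFun A := ⟨blk (A : Matrix (Fin 2) (Fin 2) F) ((A : Matrix (Fin 2) (Fin 2) F).det)⁻¹, by
    rw [det_blk]
    exact mul_inv_cancel₀ (Matrix.GeneralLinearGroup.det A).ne_zero⟩
  map_one' := by
    apply Subtype.ext
    ext i j
    fin_cases i <;> fin_cases j <;> simp [blk]
  map_mul' A B := by
    apply Subtype.ext
    show blk _ _ = blk _ _ * blk _ _
    rw [blk_mul, Units.val_mul, Matrix.det_mul, mul_inv, mul_comm (_⁻¹)]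

/-- The scaffolding for `SL₃`. -/
noncomputable def lvlL (h2 : (2 : F) ≠ 0) : Lvl2 F (GL (Fin 2) F) (Matrix.SpecialLinearGroup (Fin 3) F) where
  toM := Units.coeHom _
  toM3 := Cfsg.slToMat 3 F
  ι := ιL
  hinjM := Units.val_injective
  hinjM3 := fun a b h => Subtype.ext h
  two_ne := h2
  hι g := rfl
  p13 := ⟨!![0, 0, -1; 0, 1, 0; 1, 0, 0], by
    rw [Matrix.det_fin_three]
    simp⟩
  p23 := ⟨!![-1, 0, 0; 0, 0, 1; 0, 1, 0], by
    rw [Matrix.det_fin_three]
    simp⟩
  hp13 := rfl
  hp23 := rfl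
  hcentr := by
    intro g hg
    have h1 := blk_of_comm h2 hg
    have h3 : (g : Matrix (Fin 3) (Fin 3) F) = blk !![g.1 0 0, g.1 0 1; g.1 1 0, g.1 1 1] (g.1 2 2) := h1
    have hdet := g.2
    rw [h3, det_blk] at hdet
    have hA : (!![g.1 0 0, g.1 0 1; g.1 1 0, g.1 1 1] : Matrix (Fin 2) (Fin 2) F).det ≠ 0 := by
      intro h
      rw [h, zero_mul] at hdet
      exact zero_ne_one hdet
    refine ⟨Matrix.GeneralLinearGroup.mkOfDetNeZero _ hA, ?_⟩
    apply Subtype.ext
    have hd : ((!![g.1 0 0, g.1 0 1; g.1 1 0, g.1 1 1] : Matrix (Fin 2) (Fin 2) F).det)⁻¹ = g.1 2 2 :=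
      inv_eq_of_mul_eq_one_right hdet
    show blk !![g.1 0 0, g.1 0 1; g.1 1 0, g.1 1 1]
      ((!![g.1 0 0, g.1 0 1; g.1 1 0, g.1 1 1] : Matrix (Fin 2) (Fin 2) F).det)⁻¹ = (g : Matrix (Fin 3) (Fin 3) F)
    rw [hd]
    exact h3.symm

/-- The `2`-part of the multiplicative group when `|F| ≡ 3 (mod 4)`. -/
theorem two_part_of_three [Fintype F] (h3 : Fintype.card F % 4 = 3) {n : F} {k : ℕ} (hn : n ^ 2 ^ k = 1) : n * n = 1 := by
  obtain ⟨m, hm⟩ : ∃ m, Fintype.card F = 4 * m + 3 := ⟨Fintype.card F / 4, by omega⟩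
  have hn0 : n ≠ 0 := by
    rintro rfl
    rw [zero_pow (by positivity)] at hn
    exact zero_ne_one hn
  have h1 : n ^ (Fintype.card F - 1) = 1 := FiniteField.pow_card_sub_one_eq_one n hn0
  have h2 : (n * n) ^ (2 * m + 1) = 1 := by
    rw [← pow_two, ← pow_mul, ← h1]
    congr 1
    omega
  have h4 : (n * n) ^ 2 ^ k = 1 := by
    rw [← pow_two, ← pow_mul, mul_comm, pow_mul, hn, one_pow]
  have hc : Nat.Coprime (2 * m + 1) (2 ^ k) := by
    apply Nat.Coprime.pow_right
    simp
  have := (pow_gcd_eq_one (a := n * n)).mpr ⟨h2, h4⟩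
  rwa [Nat.Coprime.gcd_eq_one hc, pow_one] at this

/-- Existence of `κ` with `2 κ² = ± 1` when `-1` is not a square. -/
theorem exists_kappa [Fintype F] (h2 : (2 : F) ≠ 0) (hi : ¬ IsSquare (-1 : F)) : ∃ κ : F, 2 * κ * κ = 1 ∨ 2 * κ * κ = -1 := by
  classical
  have hrc : ringChar F ≠ 2 := fun h => h2 (by
    have : CharP F 2 := by rw [← h]; exact ringChar.charP F
    exact CharTwo.two_eq_zero)
  by_cases hs : IsSquare (2 : F)
  · obtain ⟨β, hβ⟩ := hs
    have hβ0 : β ≠ 0 := by
      rintro rfl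
      apply h2
      simpa using hβ
    refine ⟨β⁻¹, Or.inl ?_⟩
    rw [hβ]
    field_simp
  · have h1 : quadraticChar F (-1) = -1 := (quadraticChar_neg_one_iff_not_isSquare).mpr hi
    have h3 : quadraticChar F 2 = -1 := (quadraticChar_neg_one_iff_not_isSquare).mpr hs
    have h4 : quadraticChar F (-2) = 1 := by
      have : (-2 : F) = (-1) * 2 := by ring
      rw [this, map_mul, h1, h3]
      norm_num
    have hm2 : (-2 : F) ≠ 0 := neg_ne_zero.mpr h2
    obtain ⟨β, hβ⟩ := (quadraticChar_one_iff_isSquare hm2).mp h4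
    have hβ0 : β ≠ 0 := by
      rintro rfl
      apply hm2
      simpa using hβ
    refine ⟨β⁻¹, Or.inr ?_⟩
    have h5 : (2 : F) = -(β * β) := by rw [← hβ]; ring
    rw [h5]
    field_simp

section main

variable [Fintype F]

theorem two_ne_of_odd (hodd : Fintype.card F % 2 = 1) : (2 : F) ≠ 0 := by
  intro h
  have h1 : ringChar F = 2 := by
    have : CharP F 2 := (CharTwo.of_one_ne_zero_of_two_eq_zero one_ne_zero h)
    exact ringChar.eq F 2
  have := (FiniteField.even_card_iff_char_two).mp h1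
  omega

/-- The split case. -/
theorem split_case (hodd : Fintype.card F % 2 = 1) {i : F} (hi : i * i = -1)
    (S : Sylow 2 (Matrix.ProjectiveSpecialLinearGroup (Fin 3) F)) :
    (Cfsg.groupFusionSystem (S : Subgroup (Matrix.ProjectiveSpecialLinearGroup (Fin 3) F))).IsSimple 2 := by
  have h2 := two_ne_of_odd hodd
  have hi0 : i ≠ 0 := by
    rintro rfl
    simp at hi
  refine (lvlL h2).split (mk2 i 0 0 (-i) (by
      have : i * -i - 0 * 0 = 1 := by linear_combination -hi
      rw [this]; exact one_ne_zero))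
    (mk2 0 1 1 0 (by simp)) hi rfl rfl ?_
    (mk2 1 0 0 (-1) (by simp)) (mk2 1 1 1 (-1) (by
      have : (1 : F) * -1 - 1 * 1 = -2 := by ring
      rw [this]; exact neg_ne_zero.mpr h2)) rfl ?_ S
  · intro x a b hx
    have hd : a * b ≠ 0 := by
      have h3 := (Matrix.GeneralLinearGroup.det x).ne_zero
      intro h
      apply h3
      show (x : Matrix (Fin 2) (Fin 2) F).det = 0
      have hx' : (x : Matrix (Fin 2) (Fin 2) F) = !![a, 0; 0, b] := hx
      rw [hx', Matrix.det_fin_two_of, mul_zero, sub_zero, h]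
    have ha : a ≠ 0 := left_ne_zero_of_mul hd
    exact ⟨mk2 a 0 0 1 (by simpa using ha), rfl⟩
  · rw [mul_inv_eq_iff_eq_mul]
    apply Units.ext
    simp only [Units.val_mul, coe_mk2]
    ext k j
    fin_cases k <;> fin_cases j <;> simp [Matrix.mul_apply, Fin.sum_univ_succ]

/-- The non-split case. -/
theorem nonsplit_case (hodd : Fintype.card F % 2 = 1) (hi : ¬ IsSquare (-1 : F))
    (S : Sylow 2 (Matrix.ProjectiveSpecialLinearGroup (Fin 3) F)) :
    (Cfsg.groupFusionSystem (S : Subgroup (Matrix.ProjectiveSpecialLinearGroup (Fin 3) F))).IsSimple 2 := by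
  have h2 := two_ne_of_odd hodd
  have h3 : Fintype.card F % 4 = 3 := by
    by_contra h
    exact hi (FiniteField.isSquare_neg_one_iff.mpr h)
  obtain ⟨κ, hκ⟩ := exists_kappa h2 hi
  have hκ0 : 2 * κ * κ ≠ 0 := by
    rcases hκ with h | h <;> rw [h]
    · exact one_ne_zero
    · exact neg_ne_zero.mpr one_ne_zero
  let J : GL (Fin 2) F := mk2 0 (-1) 1 0 (by simp)
  let t : GL (Fin 2) F := mk2 1 0 0 (-1) (by simp)
  have hdata : ∀ x ∈ ((lvlL h2).nsData J t rfl rfl).Q1, ∃ a b : F, (x : Matrix (Fin 2) (Fin 2) F) = !![a, -b; b, a] := by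
    intro x hx
    obtain ⟨a, b, hab⟩ := ((lvlL h2).nsData J t rfl rfl).exists_form hx.1
    refine ⟨a, b, ?_⟩
    have hab' : (x : Matrix (Fin 2) (Fin 2) F) = a • 1 + b • !![0, -1; 1, 0] := hab
    rw [hab']
    ext k j
    fin_cases k <;> fin_cases j <;> simp
  refine (lvlL h2).nonsplit J t rfl rfl hκ (c₀ := mk2 κ (-κ) κ κ (by
      have : κ * κ - -κ * κ = 2 * κ * κ := by ring
      rw [this]; exact hκ0)) rfl ?_ ?_ ?_ S
  · -- Hilbert 90
    intro x hx hxx
    obtain ⟨a, b, hab⟩ := hdata x hx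
    have hn : a * a + b * b = 1 := by
      have h1 := congrArg (fun g : GL (Fin 2) F => (g : Matrix (Fin 2) (Fin 2) F) 0 0) hxx
      simp only [Units.val_mul, hab] at h1
      simpa [J, t, Matrix.mul_apply, Fin.sum_univ_succ] using h1
    by_cases ha : a = -1
    · subst ha
      have hb : b = 0 := by
        have : b * b = 0 := by linear_combination hn
        simpa using this
      subst hb
      refine ⟨J, ?_⟩
      rw [mul_inv_eq_iff_eq_mul]
      apply Units.ext
      simp only [Units.val_mul, hab]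
      ext k j
      fin_cases k <;> fin_cases j <;> simp [J, t, Matrix.mul_apply, Fin.sum_univ_succ]
    · have hdet : (1 + a) * (1 + a) - (-b) * b ≠ 0 := by
        have h5 : (1 + a) * (1 + a) - (-b) * b = 2 * (1 + a) := by linear_combination hn
        rw [h5]
        refine mul_ne_zero h2 fun h => ha ?_
        linear_combination h
      refine ⟨mk2 (1 + a) (-b) b (1 + a) hdet, ?_⟩
      rw [mul_inv_eq_iff_eq_mul]
      apply Units.ext
      simp only [Units.val_mul, hab, coe_mk2]
      ext k j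
      fin_cases k <;> fin_cases j <;> simp [J, t, Matrix.mul_apply, Fin.sum_univ_succ]
      · linear_combination -hn
      · ring
      · ring
      · linear_combination hn
  · -- elements with square `-1`
    intro x hx hxx
    obtain ⟨a, b, hab⟩ := hdata x hx
    have hxx' : ((x * t * (x * t) : GL (Fin 2) F) : Matrix (Fin 2) (Fin 2) F) = -1 := hxx
    have hn : a * a + b * b = -1 := by
      have h1 := congrFun (congrFun hxx' 0) 0
      simp only [Units.val_mul, hab] at h1
      simpa [J, t, Matrix.mul_apply, Fin.sum_univ_succ] using h1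
    have hb : b ≠ 0 := by
      rintro rfl
      apply hi
      exact ⟨a, by linear_combination -hn⟩
    refine ⟨mk2 1 a 0 b (by simpa using hb), ?_⟩
    rw [mul_inv_eq_iff_eq_mul]
    apply Units.ext
    simp only [Units.val_mul, hab, coe_mk2]
    ext k j
    fin_cases k <;> fin_cases j <;> simp [J, t, Matrix.mul_apply, Fin.sum_univ_succ]
    · linear_combination -hn
    · ring
  · -- the `2`-part of the field
    rintro n ⟨k, hk⟩ -
    exact two_part_of_three h3 hk

/-- The theorem. -/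
theorem main (hodd : Fintype.card F % 2 = 1) (S : Sylow 2 (Matrix.ProjectiveSpecialLinearGroup (Fin 3) F)) :
    (Cfsg.groupFusionSystem (S : Subgroup (Matrix.ProjectiveSpecialLinearGroup (Fin 3) F))).IsSimple 2 := by
  by_cases hi : IsSquare (-1 : F)
  · obtain ⟨i, hi⟩ := hi
    exact split_case hodd hi.symm S
  · exact nonsplit_case hodd hi S

end main

end Cfsg.Agent.Lib.L3Fus
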