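import Mathlib
import Cfsg.Prelude.Def_Transfer
import Cfsg.Prelude.Def_Solvable
import Cfsg.Agent.Lib.LargeExtra
import Cfsg.Agent.Lib.ExtraDual
import Cfsg.Agent.Lib.CharTwoLocal

/-!
# Singular subgroups for a large extraspecial 2-subgroup

`Q x = O_2(C(x))`; `Q z` extraspecial containing its centralizer.  Orthogonality of conjugates of `z` is symmetric;
singular subgroups `U`: `Q_a ⊓ Q_b ≤ Q_{ab}`, action of `⟨Q_u⟩` on `U` and on the intersection of the `Q_u`.
-/

set_option autoImplicit false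
set_option linter.unusedSectionVars false
set_option linter.unusedVariables false

namespace Cfsg.Agent.Lib.LargeSing

open Cfsg Cfsg.Agent.Lib.LargeExtra Cfsg.Agent.Lib.CharTwoLocal

variable {G : Type*} [Group G] [Finite G]

/-- `Q x` is the 2-core of the centralizer of `x`. -/
def Core (Q : G → Subgroup G) : Prop :=
  ∀ x : G, Q x = Oc 2 (Subgroup.centralizer ({x} : Set G))

theorem mem_cent {x y : G} : y ∈ Subgroup.centralizer ({x} : Set G) ↔ y * x = x * y := by
  rw [Subgroup.mem_centralizer_iff]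
  constructor
  · intro h
    exact (h x rfl).symm
  · rintro h _ rfl
    exact h.symm

namespace Core

variable {Q : G → Subgroup G}

theorem comm (hQ : Core Q) (x : G) {q : G} (hq : q ∈ Q x) : q * x = x * q := by
  rw [hQ x] at hq
  exact mem_cent.1 (Oc_le 2 _ hq)

theorem two (hQ : Core Q) (x : G) : IsPGroup 2 (Q x) := by
  rw [hQ x]
  exact isPGroup_Oc 2 _

theorem conj_mem (hQ : Core Q) (x : G) {c q : G} (hc : c * x = x * c) (hq : q ∈ Q x) :
    c * q * c⁻¹ ∈ Q x := by
  rw [hQ x] at hq ⊢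
  exact conj_mem_Oc (mem_cent.2 hc) hq

theorem conj_le (hQ : Core Q) (g x : G) :
    (Q x).map (MulAut.conj g).toMonoidHom ≤ Q (g * x * g⁻¹) := by
  rw [hQ (g * x * g⁻¹)]
  apply le_Oc
  · rintro _ ⟨q, hq, rfl⟩
    rw [mem_cent]
    show g * q * g⁻¹ * (g * x * g⁻¹) = g * x * g⁻¹ * (g * q * g⁻¹)
    have := hQ.comm x hq
    calc g * q * g⁻¹ * (g * x * g⁻¹) = g * (q * x) * g⁻¹ := by group
      _ = g * (x * q) * g⁻¹ := by rw [this]
      _ = _ := by group
  · exact (hQ.two x).map _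
  · rintro h hh _ ⟨q, hq, rfl⟩
    have hh' := mem_cent.1 hh
    have h1 : (g⁻¹ * h * g) * x = x * (g⁻¹ * h * g) := by
      have : g * ((g⁻¹ * h * g) * x) * g⁻¹ = g * (x * (g⁻¹ * h * g)) * g⁻¹ := by
        calc g * ((g⁻¹ * h * g) * x) * g⁻¹ = h * (g * x * g⁻¹) := by group
          _ = (g * x * g⁻¹) * h := hh'
          _ = _ := by group
      have h2 := mul_right_cancel this
      exact mul_left_cancel h2
    refine ⟨(g⁻¹ * h * g) * q * (g⁻¹ * h * g)⁻¹, hQ.conj_mem x h1 hq, ?_⟩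
    show g * ((g⁻¹ * h * g) * q * (g⁻¹ * h * g)⁻¹) * g⁻¹ = h * (g * q * g⁻¹) * h⁻¹
    group

theorem conj_eq (hQ : Core Q) (g x : G) :
    Q (g * x * g⁻¹) = (Q x).map (MulAut.conj g).toMonoidHom := by
  apply le_antisymm _ (hQ.conj_le g x)
  intro y hy
  have h1 := hQ.conj_le g⁻¹ (g * x * g⁻¹) ⟨y, hy, rfl⟩
  have e : g⁻¹ * (g * x * g⁻¹) * g⁻¹⁻¹ = x := by group
  rw [e] at h1
  exact ⟨_, h1, by
    show g * ((MulAut.conj g⁻¹).toMonoidHom y) * g⁻¹ = y
    show g * (g⁻¹ * y * g⁻¹⁻¹) * g⁻¹ = y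
    group⟩

theorem self_mem (hQ : Core Q) {z : G} (hz : orderOf z = 2) : z ∈ Q z := by
  rw [hQ z]
  have h : Subgroup.zpowers z ≤ Oc 2 (Subgroup.centralizer ({z} : Set G)) := by
    apply le_Oc
    · rw [Subgroup.zpowers_le]
      exact mem_cent.2 rfl
    · apply IsPGroup.of_card (n := 1)
      rw [Nat.card_zpowers, hz, pow_one]
    · intro h hh x hx
      rcases zpowers_eq_of_order_two hz hx with rfl | rfl
      · simp
      · have := mem_cent.1 hh
        rw [this]
        simp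
  exact h (Subgroup.mem_zpowers z)

theorem extraAt_self (hQ : Core Q) {z : G} (hz : orderOf z = 2) (hE : IsExtraspecial 2 ↥(Q z)) :
    ExtraAt (Q z) z := by
  obtain ⟨c, hc, -⟩ := exists_extraAt hE
  have hzm := hQ.self_mem hz
  rcases hc.central z hzm (fun y hy => (hQ.comm z hy).symm) with h | h
  · exfalso
    subst h
    simp at hz
  · rw [← h] at hc
    exact hc

theorem extraAt_conj (hQ : Core Q) {z : G} (E : ExtraAt (Q z) z) (g : G) :
    ExtraAt (Q (g * z * g⁻¹)) (g * z * g⁻¹) := by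
  rw [hQ.conj_eq]
  exact E.conj g

end Core

/-! ### Sylow subgroups inside a subgroup -/

/-- `S` is a maximal 2-subgroup of `L`. -/
def SylIn (S L : Subgroup G) : Prop :=
  S ≤ L ∧ IsPGroup 2 S ∧ ∀ R : Subgroup G, R ≤ L → IsPGroup 2 R → S ≤ R → R = S

theorem exists_sylIn_ge {L R : Subgroup G} (hR : R ≤ L) (hR2 : IsPGroup 2 R) : ∃ S, SylIn S L ∧ R ≤ S := by
  have h1 : IsPGroup 2 (R.subgroupOf L) :=
    hR2.of_injective (Subgroup.subgroupOfEquivOfLe hR).toMonoidHom
      (Subgroup.subgroupOfEquivOfLe hR).injective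
  obtain ⟨P, hP⟩ := h1.exists_le_sylow
  refine ⟨(P : Subgroup L).map L.subtype, ⟨Subgroup.map_subtype_le _, P.2.map _, ?_⟩, ?_⟩
  · intro R' hR' hRq hPR
    have h2 : IsPGroup 2 (R'.subgroupOf L) :=
      hRq.of_injective (Subgroup.subgroupOfEquivOfLe hR').toMonoidHom
        (Subgroup.subgroupOfEquivOfLe hR').injective
    have h3 : (P : Subgroup L) ≤ R'.subgroupOf L := by
      intro x hx
      exact hPR ⟨x, hx, rfl⟩
    have h4 := P.3 h2 h3
    apply le_antisymm _ hPR
    intro x hx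
    refine ⟨⟨x, hR' hx⟩, ?_, rfl⟩
    rw [← h4]
    exact hx
  · intro x hx
    exact ⟨⟨x, hR hx⟩, hP hx, rfl⟩

theorem SylIn.card_eq {S L : Subgroup G} (h : SylIn S L) :
    Nat.card S = 2 ^ (Nat.card L).factorization 2 := by
  let P : Sylow 2 L :=
    { toSubgroup := S.subgroupOf L
      isPGroup' := h.2.1.of_injective (Subgroup.subgroupOfEquivOfLe h.1).toMonoidHom
        (Subgroup.subgroupOfEquivOfLe h.1).injective
      is_maximal' := by
        intro R hR hSR
        have h1 : IsPGroup 2 (R.map L.subtype) := hR.map _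
        have h2 : S ≤ R.map L.subtype := by
          intro x hx
          exact ⟨⟨x, h.1 hx⟩, hSR hx, rfl⟩
        have h3 := h.2.2 _ (Subgroup.map_subtype_le R) h1 h2
        apply le_antisymm _ hSR
        intro x hx
        have : (x : G) ∈ R.map L.subtype := ⟨x, hx, rfl⟩
        rw [h3] at this
        exact this }
  have h1 : Nat.card ↥(P : Subgroup L) = 2 ^ (Nat.card L).factorization 2 := Sylow.card_eq_multiplicity P
  have h2 : Nat.card ↥(P : Subgroup L) = Nat.card S :=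
    Nat.card_congr (Subgroup.subgroupOfEquivOfLe h.1).toEquiv
  rw [← h2, h1]

/-- a 2-subgroup of `L` normalized by `L` lies in every maximal 2-subgroup of `L` -/
theorem SylIn.le_of_normal {S L A : Subgroup G} (h : SylIn S L) (hAL : A ≤ L) (hA2 : IsPGroup 2 A)
    (hn : ∀ l ∈ L, ∀ a ∈ A, l * a * l⁻¹ ∈ A) : A ≤ S := by
  have h1 : S ≤ Subgroup.normalizer (A : Set G) := by
    intro s hs
    rw [Subgroup.mem_normalizer_iff]
    intro a
    constructor
    · exact fun ha => hn s (h.1 hs) a ha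
    · intro ha
      have := hn s⁻¹ (L.inv_mem (h.1 hs)) _ ha
      simpa [mul_assoc] using this
  have h2 : IsPGroup 2 (A ⊔ S : Subgroup G) := hA2.to_sup_of_normal_left' h.2.1 h1
  have h3 := h.2.2 _ (sup_le hAL h.1) h2 le_sup_right
  rw [← h3]
  exact le_sup_left

theorem exists_normalizer_step {S R : Subgroup G} (hR : IsPGroup 2 R) (hSR : S < R) :
    ∃ r ∈ R, r ∉ S ∧ r ∈ Subgroup.normalizer (S : Set G) := by
  have : Group.IsNilpotent ↥R := hR.isNilpotent
  have h1 : S.subgroupOf R < ⊤ := by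
    obtain ⟨x, hx, hxS⟩ := SetLike.exists_of_lt hSR
    refine lt_of_le_of_ne le_top ?_
    intro h
    have : (⟨x, hx⟩ : R) ∈ S.subgroupOf R := by rw [h]; trivial
    exact hxS this
  have h2 := Group.normalizerCondition_of_isNilpotent (G := ↥R) _ h1
  obtain ⟨r, hr1, hr2⟩ := SetLike.exists_of_lt h2
  refine ⟨r.1, r.2, hr2, ?_⟩
  rw [Subgroup.mem_normalizer_iff]
  intro s
  have hs' := Subgroup.mem_normalizer_iff.1 hr1
  constructor
  · intro hs
    have hsR : s ∈ R := hSR.le hs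
    have := (hs' ⟨s, hsR⟩).1 hs
    exact this
  · intro hs
    have hsR : s ∈ R := by
      have := R.mul_mem (R.mul_mem (R.inv_mem r.2) (hSR.le hs)) r.2
      simpa [mul_assoc] using this
    have := (hs' ⟨s, hsR⟩).2 hs
    exact this

theorem card_cent_conj (g z : G) :
    Nat.card (Subgroup.centralizer ({g * z * g⁻¹} : Set G)) = Nat.card (Subgroup.centralizer ({z} : Set G)) := by
  have h : (Subgroup.centralizer ({z} : Set G)).map (MulAut.conj g).toMonoidHom =
      Subgroup.centralizer ({g * z * g⁻¹} : Set G) := by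
    ext u
    constructor
    · rintro ⟨c, hc, rfl⟩
      have hc' : c * z = z * c := mem_cent.1 hc
      apply mem_cent.2
      show g * c * g⁻¹ * (g * z * g⁻¹) = g * z * g⁻¹ * (g * c * g⁻¹)
      calc g * c * g⁻¹ * (g * z * g⁻¹) = g * (c * z) * g⁻¹ := by group
        _ = g * (z * c) * g⁻¹ := by rw [hc']
        _ = _ := by group
    · intro hu
      rw [mem_cent] at hu
      refine ⟨g⁻¹ * u * g, mem_cent.2 ?_, ?_⟩
      · have : g * ((g⁻¹ * u * g) * z) * g⁻¹ = g * (z * (g⁻¹ * u * g)) * g⁻¹ := by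
          calc g * ((g⁻¹ * u * g) * z) * g⁻¹ = u * (g * z * g⁻¹) := by group
            _ = (g * z * g⁻¹) * u := hu
            _ = _ := by group
        exact mul_left_cancel (mul_right_cancel this)
      · show g * (g⁻¹ * u * g) * g⁻¹ = u
        group
  rw [← h]
  exact Subgroup.card_map_of_injective (MulAut.conj g).injective

/-! ### Symmetry of orthogonality -/

section Symm

variable {Q : G → Subgroup G} {z x y : G}

/-- the fusion element: a 2-element of `C(x)` moving `z` and normalizing a Sylow subgroup -/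
theorem exists_r (hQ : Core Q) (E : ExtraAt (Q z) z) {g : G} (hx : g * z * g⁻¹ ∈ Q z)
    {y : G} (hy : y ∈ Q z) (hyx : y * (g * z * g⁻¹) * y⁻¹ = g * z * g⁻¹ * z) :
    ∃ r, r * (g * z * g⁻¹) = (g * z * g⁻¹) * r ∧ r * z * r⁻¹ ≠ z ∧
      (r * z * r⁻¹) * z = z * (r * z * r⁻¹) ∧
      ∀ a ∈ Q z, a * (g * z * g⁻¹) = (g * z * g⁻¹) * a → (r * z * r⁻¹) * a = a * (r * z * r⁻¹) := by
  have hz1 := E.ne_one
  set x := g * z * g⁻¹ with hxdef
  have hzx : x * z = z * x := E.cen x hx
  let Cz := Subgroup.centralizer ({z} : Set G)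
  let Cx := Subgroup.centralizer ({x} : Set G)
  let A : Subgroup G := Q z ⊓ Cx
  have hA2 : IsPGroup 2 A := (hQ.two z).to_le inf_le_left
  have hAH : A ≤ Cz ⊓ Cx := fun a ha => ⟨mem_cent.2 (hQ.comm z ha.1), ha.2⟩
  obtain ⟨S, hS, -⟩ := exists_sylIn_ge hAH hA2
  have hAS : A ≤ S := by
    apply hS.le_of_normal hAH hA2
    rintro l ⟨hl1, hl2⟩ a ⟨ha1, ha2⟩
    refine ⟨hQ.conj_mem z (mem_cent.1 hl1) ha1, ?_⟩
    exact Cx.mul_mem (Cx.mul_mem hl2 ha2) (Cx.inv_mem hl2)
  have hzA : z ∈ A := ⟨E.mem, mem_cent.2 hzx.symm⟩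
  have hSz : S ≤ Cz := hS.1.trans inf_le_left
  have hSx : S ≤ Cx := hS.1.trans inf_le_right
  obtain ⟨T, hT, hST⟩ := exists_sylIn_ge hSz hS.2.1
  have hQT : Q z ≤ T := by
    apply hT.le_of_normal (fun q hq => mem_cent.2 (hQ.comm z hq)) (hQ.two z)
    intro l hl a ha
    exact hQ.conj_mem z (mem_cent.1 hl) ha
  have hyT : y ∈ T := hQT hy
  have hyS : y ∉ S := by
    intro h
    have h1 := mem_cent.1 (hSx h)
    have h2 : y * x * y⁻¹ = x := by rw [h1]; group
    rw [hyx] at h2
    exact hz1 (mul_left_cancel (h2.trans (mul_one x).symm))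
  have hSTlt : S < T := lt_of_le_of_ne hST (fun h => hyS (h ▸ hyT))
  obtain ⟨R, hR, hSR⟩ := exists_sylIn_ge hSx hS.2.1
  have hcard : Nat.card R = Nat.card T := by
    have h0 : Nat.card Cx = Nat.card Cz := card_cent_conj g z
    rw [hR.card_eq, hT.card_eq, h0]
  have hSRlt : S < R := by
    refine lt_of_le_of_ne hSR ?_
    intro h
    have h1 : Nat.card S < Nat.card T := Set.ncard_lt_ncard hSTlt (Set.toFinite _)
    rw [← hcard, ← h] at h1
    exact lt_irrefl _ h1
  obtain ⟨r, hrR, hrS, hrN⟩ := exists_normalizer_step hR.2.1 hSRlt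
  have hrx : r * x = x * r := mem_cent.1 (hR.1 hrR)
  have hrz : r * z * r⁻¹ ≠ z := by
    intro h
    have h1 : r * z = z * r := by
      calc r * z = (r * z * r⁻¹) * r := by group
        _ = z * r := by rw [h]
    have h2 : R ⊓ Cz = S := by
      apply hS.2.2 _ (le_inf inf_le_right (inf_le_left.trans hR.1)) (hR.2.1.to_le inf_le_left)
      exact le_inf hSR hSz
    apply hrS
    rw [← h2]
    exact ⟨hrR, mem_cent.2 h1⟩
  have hzS : z ∈ S := hAS hzA
  have hz'S : r * z * r⁻¹ ∈ S := (Subgroup.mem_normalizer_iff.1 hrN z).1 hzS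
  refine ⟨r, hrx, hrz, mem_cent.1 (hSz hz'S), ?_⟩
  intro a ha hax
  have haS : a ∈ S := hAS ⟨ha, mem_cent.2 hax⟩
  have h1 : r⁻¹ * a * r ∈ S := by
    have h2 := (Subgroup.mem_normalizer_iff.1 hrN (r⁻¹ * a * r)).2
    apply h2
    have : r * (r⁻¹ * a * r) * r⁻¹ = a := by group
    rw [this]
    exact haS
  have h3 : (r⁻¹ * a * r) * z = z * (r⁻¹ * a * r) := mem_cent.1 (hSz h1)
  calc r * z * r⁻¹ * a = r * (z * (r⁻¹ * a * r)) * r⁻¹ := by group
    _ = r * ((r⁻¹ * a * r) * z) * r⁻¹ := by rw [h3]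
    _ = a * (r * z * r⁻¹) := by group

/-- the identification of the conjugate of `z` -/
theorem z'_eq (hcc : ∀ a, (∀ q ∈ Q z, q * a = a * q) → a ∈ Q z) (E : ExtraAt (Q z) z)
    {x y z' : G} (hx : x ∈ Q z) (hxx : x * x = 1) (hy : y ∈ Q z) (hyx : y * x * y⁻¹ = x * z)
    (h1 : z' ≠ 1) (hzz : z' ≠ z) (hzx : z' ≠ x)
    (hcz : z' * z = z * z') (hn : ∀ q ∈ Q z, z' * q * z'⁻¹ ∈ Q z)
    (hA : ∀ a ∈ Q z, a * x = x * a → z' * a = a * z') : z' = x * z := by
  have hz2 := E.sq_eq
  have hzxc : x * z = z * x := E.cen x hx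
  have hzyc : y * z = z * y := E.cen y hy
  -- the cosets of `C_Q(x)`
  have hcos : ∀ q ∈ Q z, q * x = x * q ∨ (y⁻¹ * q) * x = x * (y⁻¹ * q) := by
    intro q hq
    rcases E.comm q hq x hx with h | h
    · left
      exact comm_of_conj_eq (mul_inv_eq_one.1 h)
    · right
      have h2 : q * x * q⁻¹ = x * z := by
        calc q * x * q⁻¹ = (q * x * q⁻¹ * x⁻¹) * x := by group
          _ = z * x := by rw [h]
          _ = x * z := hzxc.symm
      apply comm_of_conj_eq
      calc y⁻¹ * q * x * (y⁻¹ * q)⁻¹ = y⁻¹ * (q * x * q⁻¹) * y := by group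
        _ = y⁻¹ * (y * x * y⁻¹) * y := by rw [h2, hyx]
        _ = x := by group
  -- an element commuting with `y` and `C_Q(x)` is `1` or `z`
  have hcen : ∀ w, (∀ a ∈ Q z, a * x = x * a → w * a = a * w) → w * y = y * w → w = 1 ∨ w = z := by
    intro w hw hwy
    have hwq : ∀ q ∈ Q z, q * w = w * q := by
      intro q hq
      rcases hcos q hq with h | h
      · exact (hw q hq h).symm
      · have h2 := hw _ (Subgroup.mul_mem _ (Subgroup.inv_mem _ hy) hq) h
        have h3 : q = y * (y⁻¹ * q) := by group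
        rw [h3, mul_assoc, ← h2, ← mul_assoc, ← hwy, mul_assoc]
    have hwQ := hcc w hwq
    exact E.central w hwQ (fun q hq => (hwq q hq).symm)
  let φ : G ≃* G := MulAut.conj z'
  have hφ : ∀ u, φ u = z' * u * z'⁻¹ := fun u => rfl
  have hφz : φ z = z := by rw [hφ, hcz]; group
  have hφa : ∀ a, z' * a = a * z' → φ a = a := by
    intro a h
    rw [hφ, h]
    group
  -- `c = y⁻¹ φ(y)`
  have hφyQ : φ y ∈ Q z := hn y hy
  let c : G := y⁻¹ * φ y
  have hcQ : c ∈ Q z := Subgroup.mul_mem _ (Subgroup.inv_mem _ hy) hφyQ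
  have hcomm : ∀ a ∈ Q z, a * x = x * a → c * a = a * c := by
    intro a ha hax
    have hφa' := hφa a (hA a ha hax)
    have h3 : φ (y * a * y⁻¹ * a⁻¹) = y * a * y⁻¹ * a⁻¹ := by
      rcases E.comm y hy a ha with h | h
      · rw [h, map_one]
      · rw [h, hφz]
    rw [map_mul, map_mul, map_mul, map_inv, map_inv, hφa'] at h3
    -- `φ y * a * (φ y)⁻¹ = y * a * y⁻¹`
    have h4 : φ y * a * (φ y)⁻¹ = y * a * y⁻¹ := mul_right_cancel h3
    have h5 : (y⁻¹ * φ y) * a * (y⁻¹ * φ y)⁻¹ = a := by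
      calc (y⁻¹ * φ y) * a * (y⁻¹ * φ y)⁻¹ = y⁻¹ * (φ y * a * (φ y)⁻¹) * y := by group
        _ = y⁻¹ * (y * a * y⁻¹) * y := by rw [h4]
        _ = a := by group
    exact comm_of_conj_eq h5
  -- squares
  have hφyy : φ y * φ y = y * y := by
    rw [← map_mul]
    have h6 : y * y = 1 ∨ y * y = z := by
      have := E.sq y hy
      rwa [pow_two] at this
    rcases h6 with h | h
    · rw [h, map_one]
    · rw [h, hφz]
  have hφc : φ y = y * c := by
    show φ y = y * (y⁻¹ * φ y)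
    group
  have hcyc : c * y * c = y := by
    rw [hφc] at hφyy
    have h7 : y * (c * y * c) = y * y := by
      rw [← hφyy]
      group
    exact mul_left_cancel h7
  -- `x y x = z y`
  have hxyx : x * y * x = z * y := by
    have h8 : y * x = x * z * y := by
      calc y * x = (y * x * y⁻¹) * y := by group
        _ = x * z * y := by rw [hyx]
    calc x * y * x = x * (y * x) := by group
      _ = x * (x * z * y) := by rw [h8]
      _ = (x * x) * z * y := by group
      _ = z * y := by rw [hxx]; group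
  have hzne : z * y ≠ y := by
    intro h
    apply E.ne_one
    exact mul_right_cancel (h.trans (one_mul y).symm)
  rcases E.mem_of_comm_centralizer hx hxx hy hyx hcQ hcomm with h | h | h | h
  · -- `c = 1`
    exfalso
    have h1y : φ y = y := by rw [hφc, h, mul_one]
    have hwy : z' * y = y * z' := by
      calc z' * y = φ y * z' := by rw [hφ]; group
        _ = y * z' := by rw [h1y]
    rcases hcen z' hA hwy with h2 | h2
    · exact h1 h2
    · exact hzz h2
  · -- `c = z`
    have h1y : φ y = y * z := by rw [hφc, h]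
    have hwa : ∀ a ∈ Q z, a * x = x * a → (z' * x) * a = a * (z' * x) := by
      intro a ha hax
      rw [mul_assoc, ← hax, ← mul_assoc, hA a ha hax, mul_assoc]
    have hwy : (z' * x) * y = y * (z' * x) := by
      have h9 : x * y = z * y * x := by
        calc x * y = (x * y * x) * x := by rw [mul_assoc _ x x, hxx, mul_one]
          _ = z * y * x := by rw [hxyx]
      have h10 : z' * y = y * z * z' := by
        calc z' * y = φ y * z' := by rw [hφ]; group
          _ = y * z * z' := by rw [h1y]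
      calc z' * x * y = z' * (x * y) := by group
        _ = z' * (z * y * x) := by rw [h9]
        _ = (z' * z) * y * x := by group
        _ = z * (z' * y) * x := by rw [hcz]; group
        _ = z * (y * z * z') * x := by rw [h10]
        _ = (z * y) * z * (z' * x) := by group
        _ = (y * z) * z * (z' * x) := by rw [hzyc]
        _ = y * (z * z) * (z' * x) := by group
        _ = y * (z' * x) := by rw [hz2]; group
    rcases hcen (z' * x) hwa hwy with h2 | h2
    · exfalso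
      apply hzx
      have h3 : z' * (x * x) = 1 * x := by rw [← mul_assoc, h2]
      rw [hxx, mul_one, one_mul] at h3
      exact h3
    · have h3 : z' * (x * x) = z * x := by rw [← mul_assoc, h2]
      rw [hxx, mul_one] at h3
      rw [h3, hzxc]
  · -- `c = x`
    exfalso
    rw [h, hxyx] at hcyc
    exact hzne hcyc
  · -- `c = x z`
    exfalso
    rw [h] at hcyc
    have h11 : x * z * y * (x * z) = z * y := by
      calc x * z * y * (x * z) = x * (z * y) * x * z := by group
        _ = x * (y * z) * x * z := by rw [hzyc]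
        _ = x * y * (z * x) * z := by group
        _ = x * y * (x * z) * z := by rw [hzxc]
        _ = (x * y * x) * (z * z) := by group
        _ = z * y := by rw [hxyx, hz2, mul_one]
    rw [h11] at hcyc
    exact hzne hcyc

/-- symmetry of orthogonality -/
theorem symm_core (hQ : Core Q) (E : ExtraAt (Q z) z) (hcc : ∀ a, (∀ q ∈ Q z, q * a = a * q) → a ∈ Q z)
    {g : G} (hx : g * z * g⁻¹ ∈ Q z) : z ∈ Q (g * z * g⁻¹) := by
  by_cases hne : g * z * g⁻¹ = z
  · rw [hne]
    exact E.mem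
  have hz1 := E.ne_one
  have hzz := E.sq_eq
  have hx1 : g * z * g⁻¹ ≠ 1 := by
    intro h
    apply hz1
    have : z = g⁻¹ * (g * z * g⁻¹) * g := by group
    rw [this, h]
    group
  have hxx : (g * z * g⁻¹) * (g * z * g⁻¹) = 1 := by
    calc (g * z * g⁻¹) * (g * z * g⁻¹) = g * (z * z) * g⁻¹ := by group
      _ = 1 := by rw [hzz]; group
  obtain ⟨y, hy, hyx⟩ := E.exists_not_comm hx hx1 hne
  obtain ⟨r, hrx, hrz, hcz, hA⟩ := exists_r hQ E hx hy hyx
  set x := g * z * g⁻¹ with hxdef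
  have h1' : r * z * r⁻¹ ≠ 1 := by
    intro h
    apply hz1
    have : z = r⁻¹ * (r * z * r⁻¹) * r := by group
    rw [this, h]
    group
  have hzx' : r * z * r⁻¹ ≠ x := by
    intro h
    apply hne
    have h2 : r * z * r⁻¹ = r * x * r⁻¹ := by
      rw [h, hrx]
      group
    have h3 : r * z = r * x := mul_right_cancel h2
    exact (mul_left_cancel h3).symm
  have hz' := z'_eq hcc E hx hxx hy hyx h1' hrz hzx' hcz (fun q hq => hQ.conj_mem z hcz hq) hA
  -- the swapping element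
  have hzc : x * z = z * x := E.cen x hx
  have hzyc : y * z = z * y := E.cen y hy
  have hyxi : y⁻¹ * x * y = x * z := by
    have h2 : y⁻¹ * (x * z) * y = x := by
      rw [← hyx]
      group
    have h3 : y⁻¹ * (x * z) * y = (y⁻¹ * x * y) * z := by
      calc y⁻¹ * (x * z) * y = y⁻¹ * x * (z * y) := by group
        _ = y⁻¹ * x * (y * z) := by rw [hzyc]
        _ = _ := by group
    rw [h3] at h2
    calc y⁻¹ * x * y = (y⁻¹ * x * y) * (z * z) := by rw [hzz, mul_one]
      _ = ((y⁻¹ * x * y) * z) * z := by group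
      _ = x * z := by rw [h2]
  have hrxc : r * x * r⁻¹ = x := by rw [hrx]; group
  let w : G := y * r * y⁻¹
  have hwx : w * x * w⁻¹ = z := by
    calc w * x * w⁻¹ = y * (r * (y⁻¹ * x * y) * r⁻¹) * y⁻¹ := by
          show y * r * y⁻¹ * x * (y * r * y⁻¹)⁻¹ = _
          group
      _ = y * (r * (x * z) * r⁻¹) * y⁻¹ := by rw [hyxi]
      _ = y * ((r * x * r⁻¹) * (r * z * r⁻¹)) * y⁻¹ := by group
      _ = y * (x * (x * z)) * y⁻¹ := by rw [hrxc, hz']
      _ = y * ((x * x) * z) * y⁻¹ := by group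
      _ = z := by rw [hxx, one_mul, hzyc]; group
  have hwz : w * z * w⁻¹ = x := by
    have h2 : y⁻¹ * z * y = z := by
      rw [mul_assoc, ← hzyc]
      group
    calc w * z * w⁻¹ = y * (r * (y⁻¹ * z * y) * r⁻¹) * y⁻¹ := by
          show y * r * y⁻¹ * z * (y * r * y⁻¹)⁻¹ = _
          group
      _ = y * (x * z) * y⁻¹ := by rw [h2, hz']
      _ = (y * x * y⁻¹) * (y * z * y⁻¹) := by group
      _ = (x * z) * z := by rw [hyx, hzyc]; group
      _ = x * (z * z) := by group
      _ = x := by rw [hzz, mul_one]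
  have h5 : Q x = (Q z).map (MulAut.conj w).toMonoidHom := by
    rw [← hwz]
    exact hQ.conj_eq w z
  rw [h5]
  exact ⟨x, hx, hwx⟩

end Symm

/-- the statement of symmetry in the original setting -/
theorem symm_main (Q : G → Subgroup G)
    (hQ : ∀ x : G, Q x = (Cfsg.pCore 2 ↥(Subgroup.centralizer ({x} : Set G))).map (Subgroup.centralizer ({x} : Set G)).subtype)
    (z : G) (hz : orderOf z = 2) (hE : Cfsg.IsExtraspecial 2 ↥(Q z))
    (hC : Subgroup.centralizer ((Q z : Subgroup G) : Set G) ≤ Q z)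
    (g : G) (hx : g * z * g⁻¹ ∈ Q z) : z ∈ Q (g * z * g⁻¹) := by
  have hc : Core Q := hQ
  refine symm_core hc (hc.extraAt_self hz hE) (fun a ha => hC ?_) hx
  rw [Subgroup.mem_centralizer_iff]
  intro q hq
  exact ha q hq

/-! ### Singular subgroups -/

/-- A member of an extraspecial group outside a subgroup containing the centre is moved by something
centralizing the subgroup. -/
theorem exists_sep {P A : Subgroup G} {u v : G} (E : ExtraAt P u) (hA : A ≤ P) (hu : u ∈ A) (hv : v ∈ P)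
    (hvA : v ∉ A) : ∃ h ∈ P, (∀ a ∈ A, h * a = a * h) ∧ h * v * h⁻¹ = u * v := by
  have hd := Cfsg.Agent.Lib.ExtraDual.double_perp E hA hu
  by_contra hcon
  push Not at hcon
  apply hvA
  rw [← hd]
  refine ⟨hv, Subgroup.mem_centralizer_iff.2 ?_⟩
  rintro h ⟨hh1, hh2⟩
  have hh3 : ∀ a ∈ A, h * a = a * h := fun a ha => (Subgroup.mem_centralizer_iff.1 hh2 a ha).symm
  have h4 := hcon h hh1 hh3
  rcases E.comm h hh1 v hv with h5 | h5
  · exact comm_of_conj_eq (mul_inv_eq_one.1 h5)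
  · exfalso
    apply h4
    calc h * v * h⁻¹ = (h * v * h⁻¹ * v⁻¹) * v := by group
      _ = u * v := by rw [h5]

/-- the singular subgroup data -/
structure Sing (Q : G → Subgroup G) (z : G) (U : Subgroup G) : Prop where
  core : Core Q
  E : ExtraAt (Q z) z
  hU2 : ∀ u ∈ U, u * u = 1
  hS : ∀ u ∈ U, u ≠ 1 → ∃ g : G, g * z * g⁻¹ = u
  hO : ∀ u ∈ U, ∀ v ∈ U, u ≠ 1 → v ≠ 1 → v ∈ Q u

namespace Sing

variable {Q : G → Subgroup G} {z : G} {U : Subgroup G}

theorem extra (D : Sing Q z U) {u : G} (hu : u ∈ U) (h1 : u ≠ 1) : ExtraAt (Q u) u := by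
  obtain ⟨g, rfl⟩ := D.hS u hu h1
  exact D.core.extraAt_conj D.E g

theorem le_Q (D : Sing Q z U) {u : G} (hu : u ∈ U) (h1 : u ≠ 1) : U ≤ Q u := by
  intro v hv
  by_cases hv1 : v = 1
  · rw [hv1]
    exact Subgroup.one_mem _
  · exact D.hO u hu v hv h1 hv1

theorem inv_eq (D : Sing Q z U) {a : G} (ha : a ∈ U) : a⁻¹ = a :=
  inv_eq_of_mul_eq_one_left (D.hU2 a ha)

theorem comm (D : Sing Q z U) {a b : G} (ha : a ∈ U) (hb : b ∈ U) : a * b = b * a := by
  have h1 := D.hU2 _ (U.mul_mem ha hb)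
  have h2 := D.inv_eq ha
  have h3 := D.inv_eq hb
  calc a * b = a * b * (a * b * (a * b)⁻¹) := by group
    _ = (a * b * (a * b)) * (a * b)⁻¹ := by group
    _ = (a * b)⁻¹ := by rw [h1, one_mul]
    _ = b⁻¹ * a⁻¹ := by group
    _ = b * a := by rw [h2, h3]

/-- the key step: `Q_a ⊓ Q_b ≤ Q_{ab}` -/
theorem inter_step (D : Sing Q z U) {a b q : G} (ha : a ∈ U) (hb : b ∈ U) (ha1 : a ≠ 1) (hb1 : b ≠ 1)
    (hab : a ≠ b) (hqa : q ∈ Q a) (hqb : q ∈ Q b) : q ∈ Q (a * b) := by
  have Ea := D.extra ha ha1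
  have hbQ : b ∈ Q a := D.hO a ha b hb ha1 hb1
  obtain ⟨y, hy, hyb⟩ := Ea.exists_not_comm hbQ hb1 hab.symm
  have hab' : b * a = a * b := D.comm hb ha
  have hab1 : a * b ≠ 1 := by
    intro h
    apply hab
    have := mul_eq_one_iff_eq_inv.1 h
    rw [this, D.inv_eq hb]
  have h1 : Q (a * b) = (Q b).map (MulAut.conj y).toMonoidHom := by
    rw [← hab', ← hyb]
    exact D.core.conj_eq y b
  have h2 : y * q * y⁻¹ ∈ Q (a * b) := by
    rw [h1]
    exact ⟨q, hqb, rfl⟩
  have haM : a ∈ Q (a * b) := D.hO _ (U.mul_mem ha hb) a ha hab1 ha1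
  rcases Ea.comm y hy q hqa with h | h
  · have h3 : y * q * y⁻¹ = q := mul_inv_eq_one.1 h
    rwa [h3] at h2
  · have h3 : q = a⁻¹ * (y * q * y⁻¹) := by
      rw [← h]
      group
    rw [h3]
    exact Subgroup.mul_mem _ (Subgroup.inv_mem _ haM) h2

/-- an element of `Q u` normalizes `U` -/
theorem conj_mem_U (D : Sing Q z U) {u g v : G} (hu : u ∈ U) (h1 : u ≠ 1) (hg : g ∈ Q u) (hv : v ∈ U) :
    g * v * g⁻¹ ∈ U := by
  have E := D.extra hu h1
  rcases E.comm g hg v (D.le_Q hu h1 hv) with h | h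
  · rwa [mul_inv_eq_one.1 h]
  · have : g * v * g⁻¹ = u * v := by
      calc g * v * g⁻¹ = (g * v * g⁻¹ * v⁻¹) * v := by group
        _ = u * v := by rw [h]
    rw [this]
    exact U.mul_mem hu hv

theorem mem_normalizer_of (D : Sing Q z U) {u g : G} (hu : u ∈ U) (h1 : u ≠ 1) (hg : g ∈ Q u) :
    g ∈ Subgroup.normalizer (U : Set G) := by
  rw [Subgroup.mem_normalizer_iff]
  intro v
  constructor
  · exact D.conj_mem_U hu h1 hg
  · intro h
    have := D.conj_mem_U hu h1 (Subgroup.inv_mem _ hg) h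
    simpa [mul_assoc] using this

end Sing

/-- the join of the `Q u` -/
theorem LU_le {Q : G → Subgroup G} {U M LU : Subgroup G}
    (hLU : LU = ⨆ u ∈ ((U : Set G) \ {1}), Q u) (h : ∀ u ∈ U, u ≠ 1 → Q u ≤ M) : LU ≤ M := by
  rw [hLU]
  apply iSup₂_le
  rintro u ⟨hu, hu1⟩
  exact h u hu hu1

theorem le_LU {Q : G → Subgroup G} {U LU : Subgroup G}
    (hLU : LU = ⨆ u ∈ ((U : Set G) \ {1}), Q u) {u : G} (hu : u ∈ U) (h1 : u ≠ 1) : Q u ≤ LU := by
  rw [hLU]
  exact le_iSup₂_of_le u ⟨hu, h1⟩ le_rfl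

theorem mem_QU {Q : G → Subgroup G} {U QU : Subgroup G}
    (hQU : QU = ⨅ u ∈ ((U : Set G) \ {1}), Q u) {x : G} : x ∈ QU ↔ ∀ u ∈ U, u ≠ 1 → x ∈ Q u := by
  rw [hQU, Subgroup.mem_iInf]
  constructor
  · intro h u hu h1
    exact (Subgroup.mem_iInf.1 (h u)) ⟨hu, h1⟩
  · intro h u
    rw [Subgroup.mem_iInf]
    rintro ⟨hu, h1⟩
    exact h u hu h1

/-- `LU` normalizes `U` -/
theorem LU_le_normalizer {Q : G → Subgroup G} {z : G} {U LU : Subgroup G} (D : Sing Q z U)
    (hLU : LU = ⨆ u ∈ ((U : Set G) \ {1}), Q u) : LU ≤ Subgroup.normalizer (U : Set G) :=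
  LU_le hLU fun u hu h1 g hg => D.mem_normalizer_of hu h1 hg

/-- the intersection over generators -/
theorem inter_gen {Q : G → Subgroup G} {z : G} {U QU : Subgroup G} (D : Sing Q z U)
    (hQU : QU = ⨅ u ∈ ((U : Set G) \ {1}), Q u) (T : Set G) (hT : Subgroup.closure T = U) (hT1 : (1 : G) ∉ T) :
    QU = ⨅ t ∈ T, Q t := by
  have hTU : ∀ t ∈ T, t ∈ U := fun t ht => hT ▸ Subgroup.subset_closure ht
  apply le_antisymm
  · apply le_iInf₂
    intro t ht
    intro x hx
    exact (mem_QU hQU).1 hx t (hTU t ht) (fun h => hT1 (h ▸ ht))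
  · intro q hq
    have hqT : ∀ t ∈ T, q ∈ Q t := fun t ht =>
      (Subgroup.mem_iInf.1 (Subgroup.mem_iInf.1 hq t)) ht
    rw [mem_QU hQU]
    have key : ∀ u ∈ Subgroup.closure T, u = 1 ∨ q ∈ Q u := by
      intro u hu
      induction hu using Subgroup.closure_induction with
      | mem x hx => exact Or.inr (hqT x hx)
      | one => exact Or.inl rfl
      | mul a b ha hb iha ihb =>
        rw [hT] at ha hb
        by_cases ha1 : a = 1
        · subst ha1
          rw [one_mul]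
          exact ihb
        by_cases hb1 : b = 1
        · subst hb1
          rw [mul_one]
          exact iha
        by_cases hab : a = b
        · subst hab
          exact Or.inl (D.hU2 a ha)
        · exact Or.inr (D.inter_step ha hb ha1 hb1 hab (iha.resolve_left ha1) (ihb.resolve_left hb1))
      | inv a ha iha =>
        rw [hT] at ha
        rw [D.inv_eq ha]
        exact iha
    intro u hu h1
    exact (key u (hT ▸ hu)).resolve_left h1

/-- the subgroup of elements acting on `QU` modulo `U` -/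
def modU (U QU : Subgroup G) : Subgroup G where
  carrier := {g | g ∈ Subgroup.normalizer (U : Set G) ∧ ∀ x ∈ QU, g * x * g⁻¹ * x⁻¹ ∈ U}
  mul_mem' := by
    rintro a b ⟨ha1, ha2⟩ ⟨hb1, hb2⟩
    refine ⟨Subgroup.mul_mem _ ha1 hb1, fun x hx => ?_⟩
    have h1 := (Subgroup.mem_normalizer_iff.1 ha1 _).1 (hb2 x hx)
    have h2 := U.mul_mem h1 (ha2 x hx)
    have e : a * b * x * (a * b)⁻¹ * x⁻¹ = a * (b * x * b⁻¹ * x⁻¹) * a⁻¹ * (a * x * a⁻¹ * x⁻¹) := by group
    rw [e]
    exact h2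
  one_mem' := ⟨Subgroup.one_mem _, fun x _ => by simp⟩
  inv_mem' := by
    rintro a ⟨ha1, ha2⟩
    have hi := Subgroup.inv_mem _ ha1
    refine ⟨hi, fun x hx => ?_⟩
    have h1 := (Subgroup.mem_normalizer_iff.1 hi _).1 (U.inv_mem (ha2 x hx))
    have e : a⁻¹ * x * a⁻¹⁻¹ * x⁻¹ = a⁻¹ * (a * x * a⁻¹ * x⁻¹)⁻¹ * a⁻¹⁻¹ := by group
    rw [e]
    exact h1

/-- the action of `LU` on `QU` -/
theorem comm_LU_QU {Q : G → Subgroup G} {z : G} {U QU LU : Subgroup G} (D : Sing Q z U)
    (hQU : QU = ⨅ u ∈ ((U : Set G) \ {1}), Q u) (hLU : LU = ⨆ u ∈ ((U : Set G) \ {1}), Q u) :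
    ∀ g ∈ LU, ∀ x ∈ QU, g * x * g⁻¹ * x⁻¹ ∈ U := by
  have h : LU ≤ modU U QU := by
    apply LU_le hLU
    intro u hu h1 g hg
    refine ⟨D.mem_normalizer_of hu h1 hg, fun x hx => ?_⟩
    have hxu := (mem_QU hQU).1 hx u hu h1
    rcases (D.extra hu h1).comm g hg x hxu with h2 | h2
    · rw [h2]
      exact U.one_mem
    · rw [h2]
      exact hu
  exact fun g hg => (h hg).2

/-- transitivity on cosets of `U` in `QU` -/
theorem trans_coset {Q : G → Subgroup G} {z : G} {U QU LU : Subgroup G} (D : Sing Q z U)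
    (hQU : QU = ⨅ u ∈ ((U : Set G) \ {1}), Q u) (hLU : LU = ⨆ u ∈ ((U : Set G) \ {1}), Q u)
    {x : G} (hx : x ∈ QU) (hxU : x ∉ U) {u : G} (hu : u ∈ U) :
    ∃ g ∈ LU ⊓ Subgroup.centralizer (U : Set G), g * x * g⁻¹ = x * u := by
  by_cases h1 : u = 1
  · subst h1
    exact ⟨1, Subgroup.one_mem _, by simp⟩
  have E := D.extra hu h1
  have hxu := (mem_QU hQU).1 hx u hu h1
  obtain ⟨g, hg, hgA, hgx⟩ := exists_sep E (D.le_Q hu h1) hu hxu hxU
  refine ⟨g, ⟨le_LU hLU hu h1 hg, Subgroup.mem_centralizer_iff.2 fun a ha => (hgA a ha).symm⟩, ?_⟩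
  rw [hgx]
  exact (E.cen x hxu).symm

/-! ### Induced automorphisms -/

/-- elements of `U` on which conjugation by `g` agrees with an automorphism -/
def fixSub (U : Subgroup G) (φ : ↥U ≃* ↥U) (g : G) : Subgroup G where
  carrier := {v | ∃ hv : v ∈ U, g * v * g⁻¹ = ((φ ⟨v, hv⟩ : ↥U) : G)}
  mul_mem' := by
    rintro a b ⟨ha, ha1⟩ ⟨hb, hb1⟩
    refine ⟨U.mul_mem ha hb, ?_⟩
    have e : (⟨a * b, U.mul_mem ha hb⟩ : ↥U) = ⟨a, ha⟩ * ⟨b, hb⟩ := rfl
    rw [e, map_mul, Subgroup.coe_mul, ← ha1, ← hb1]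
    group
  one_mem' := by
    refine ⟨U.one_mem, ?_⟩
    have e : (⟨1, U.one_mem⟩ : ↥U) = 1 := rfl
    rw [e, map_one]
    simp
  inv_mem' := by
    rintro a ⟨ha, ha1⟩
    refine ⟨U.inv_mem ha, ?_⟩
    have e : (⟨a⁻¹, U.inv_mem ha⟩ : ↥U) = (⟨a, ha⟩ : ↥U)⁻¹ := rfl
    rw [e, map_inv, Subgroup.coe_inv, ← ha1]
    group

/-- a subgroup with one more element -/
def adj (U S : Subgroup G) (c : G) (hU2 : ∀ u ∈ U, u * u = 1) (hS : S ≤ U) (hc : c ∈ U) : Subgroup G where
  carrier := {x | x ∈ S ∨ x * c ∈ S}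
  mul_mem' := by
    have hinv : ∀ {a : G}, a ∈ U → a⁻¹ = a := fun ha => inv_eq_of_mul_eq_one_left (hU2 _ ha)
    have hcomm : ∀ {a b : G}, a ∈ U → b ∈ U → a * b = b * a := by
      intro a b ha hb
      have h1 := hU2 _ (U.mul_mem ha hb)
      calc a * b = (a * b) * ((a * b) * (a * b)⁻¹) := by group
        _ = ((a * b) * (a * b)) * (a * b)⁻¹ := by group
        _ = (a * b)⁻¹ := by rw [h1, one_mul]
        _ = b⁻¹ * a⁻¹ := by group
        _ = b * a := by rw [hinv ha, hinv hb]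
    have hmem : ∀ {a : G}, a * c ∈ S → a ∈ U := by
      intro a ha
      have h1 := U.mul_mem (hS ha) (U.inv_mem hc)
      simpa [mul_assoc] using h1
    rintro a b (ha | ha) (hb | hb)
    · exact Or.inl (S.mul_mem ha hb)
    · right
      rw [mul_assoc]
      exact S.mul_mem ha hb
    · right
      have e : a * b * c = a * c * b := by
        rw [mul_assoc, hcomm (hS hb) hc, ← mul_assoc]
      rw [e]
      exact S.mul_mem ha hb
    · left
      have e : a * b = a * c * (b * c) := by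
        have h2 : c * b = b * c := hcomm hc (hmem hb)
        calc a * b = a * (b * 1) := by group
          _ = a * (b * (c * c)) := by rw [hU2 c hc]
          _ = a * ((b * c) * c) := by group
          _ = a * (c * (b * c)) := by
            rw [hcomm (hS hb) hc]
          _ = _ := by group
      rw [e]
      exact S.mul_mem ha hb
  one_mem' := Or.inl S.one_mem
  inv_mem' := by
    have hinv : ∀ {a : G}, a ∈ U → a⁻¹ = a := fun ha => inv_eq_of_mul_eq_one_left (hU2 _ ha)
    rintro a (ha | ha)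
    · exact Or.inl (S.inv_mem ha)
    · have haU : a ∈ U := by
        have h1 := U.mul_mem (hS ha) (U.inv_mem hc)
        simpa [mul_assoc] using h1
      right
      rw [hinv haU]
      exact ha

/-- realization of an automorphism of `U` on a finite set of elements -/
theorem realize_fin {Q : G → Subgroup G} {z : G} {U LU : Subgroup G} (D : Sing Q z U)
    (hLU : LU = ⨆ u ∈ ((U : Set G) \ {1}), Q u) (φ : ↥U ≃* ↥U) (s : Finset G) (hs : ∀ v ∈ s, v ∈ U) :
    ∃ g ∈ LU, Subgroup.closure (s : Set G) ≤ fixSub U φ g := by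
  classical
  induction s using Finset.induction_on with
  | empty =>
    refine ⟨1, Subgroup.one_mem _, ?_⟩
    simp
  | insert v s hvs ih =>
    obtain ⟨g, hg, hgs⟩ := ih (fun x hx => hs x (Finset.mem_insert_of_mem hx))
    have hvU : v ∈ U := hs v (Finset.mem_insert_self _ _)
    set S := Subgroup.closure (s : Set G) with hSdef
    have hSU : S ≤ U := by
      rw [hSdef, Subgroup.closure_le]
      intro x hx
      exact hs x (Finset.mem_insert_of_mem hx)
    have hnorm := LU_le_normalizer D hLU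
    set f : G := ((φ ⟨v, hvU⟩ : ↥U) : G) with hf
    have hfU : f ∈ U := (φ ⟨v, hvU⟩).2
    set w : G := g⁻¹ * f * g with hw
    have hwU : w ∈ U := by
      have h1 := (Subgroup.mem_normalizer_iff.1 (hnorm (LU.inv_mem hg)) f).1 hfU
      simpa [hw] using h1
    have hgw : g * w * g⁻¹ = f := by rw [hw]; group
    -- reduce to finding a `g'`
    suffices hsuff : ∃ g' ∈ LU, S ≤ fixSub U φ g' ∧ v ∈ fixSub U φ g' by
      obtain ⟨g', hg', h1, h2⟩ := hsuff
      refine ⟨g', hg', ?_⟩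
      rw [Subgroup.closure_le]
      intro x hx
      rw [Finset.coe_insert] at hx
      rcases hx with rfl | hx
      · exact h2
      · exact h1 (Subgroup.subset_closure hx)
    by_cases hvS : v ∈ S
    · exact ⟨g, hg, hgs, hgs hvS⟩
    by_cases hvw : v = w
    · refine ⟨g, hg, hgs, hvU, ?_⟩
      rw [← hf, ← hgw, ← hvw]
    have hwS : w ∉ S := by
      intro h
      obtain ⟨h1, h2⟩ := hgs h
      rw [hgw] at h2
      have h3 : φ ⟨v, hvU⟩ = φ ⟨w, h1⟩ := Subtype.ext h2
      have h4 := φ.injective h3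
      exact hvw (congrArg Subtype.val h4)
    have hv1 : v ≠ 1 := fun h => hvS (h ▸ S.one_mem)
    set c : G := v * w with hc
    have hcU : c ∈ U := U.mul_mem hvU hwU
    have hc1 : c ≠ 1 := by
      intro h
      apply hvw
      have h1 := mul_eq_one_iff_eq_inv.1 h
      rw [h1, D.inv_eq hwU]
    let A : Subgroup G := adj U S c D.hU2 hSU hcU
    have hAU : A ≤ U := by
      rintro x (hx | hx)
      · exact hSU hx
      · have h1 := U.mul_mem (hSU hx) (U.inv_mem hcU)
        simpa [mul_assoc] using h1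
    have hcA : c ∈ A := by
      right
      rw [D.hU2 c hcU]
      exact S.one_mem
    have hvA : v ∉ A := by
      rintro (hx | hx)
      · exact hvS hx
      · apply hwS
        have e : w = v * c := by
          rw [hc, ← mul_assoc, D.hU2 v hvU, one_mul]
        rw [e]
        exact hx
    have hQc := D.le_Q hcU hc1
    obtain ⟨h, hh, hhA, hhv⟩ := exists_sep (D.extra hcU hc1) (hAU.trans hQc) hcA (hQc hvU) hvA
    have hhw : h * v * h⁻¹ = w := by
      rw [hhv, hc, D.comm hvU hwU, mul_assoc, D.hU2 v hvU, mul_one]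
    refine ⟨g * h, LU.mul_mem hg (le_LU hLU hcU hc1 hh), ?_, hvU, ?_⟩
    · intro e he
      obtain ⟨h1, h2⟩ := hgs he
      refine ⟨h1, ?_⟩
      rw [← h2]
      have h3 : h * e * h⁻¹ = e := by
        rw [hhA e (Or.inl he)]
        group
      calc g * h * e * (g * h)⁻¹ = g * (h * e * h⁻¹) * g⁻¹ := by group
        _ = g * e * g⁻¹ := by rw [h3]
    · rw [← hf]
      calc g * h * v * (g * h)⁻¹ = g * (h * v * h⁻¹) * g⁻¹ := by group
        _ = f := by rw [hhw, hgw]

theorem realize {Q : G → Subgroup G} {z : G} {U LU : Subgroup G} (D : Sing Q z U)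
    (hLU : LU = ⨆ u ∈ ((U : Set G) \ {1}), Q u) (φ : ↥U ≃* ↥U) :
    ∃ g ∈ LU, ∀ u : ↥U, g * (u : G) * g⁻¹ = ((φ u : ↥U) : G) := by
  classical
  let s : Finset G := (Set.toFinite (U : Set G)).toFinset
  have hs : ∀ v ∈ s, v ∈ U := fun v hv => by simpa [s] using hv
  obtain ⟨g, hg, h⟩ := realize_fin D hLU φ s hs
  refine ⟨g, hg, fun u => ?_⟩
  have hu : (u : G) ∈ s := by simp [s]
  obtain ⟨h1, h2⟩ := h (Subgroup.subset_closure hu)
  exact h2

end Cfsg.Agent.Lib.LargeSing
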