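import Mathlib

/-!
# 2-groups with commuting automorphisms `α` (involution), `ρ` regular on `C_Q(α)`

`HS lam Q` : a finite 2-group `Q` with automorphisms `α`, `ρ`, `α² = 1`, `αρ = ρα`, and an additive
parametrisation `ι : F → C_Q(α)` with `ρ (ι a) = ι (lam * a)`, where every nonzero element of the field `F`
is a power of `lam`.  The key map is `w x = x⁻¹ α(x)`.
-/

set_option autoImplicit false
set_option linter.style.haveILetI false
set_option linter.unusedSectionVars false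
set_option linter.unusedVariables false

namespace Cfsg.Agent.Lib.LayerHS

open scoped commutatorElement

universe u v

/-- A fixed point of an involutive automorphism on an invariant nontrivial subgroup of a finite 2-group. -/
theorem exists_fix_in {Q : Type u} [Group Q] [Finite Q] (hQ : IsPGroup 2 Q) (a : Q ≃* Q)
    (ha : ∀ x, a (a x) = x) (P : Subgroup Q) (hP : ∀ x ∈ P, a x ∈ P) (hne : P ≠ ⊥) :
    ∃ x ∈ P, x ≠ 1 ∧ a x = x := by
  classical
  haveI : Fact (Nat.Prime 2) := ⟨Nat.prime_two⟩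
  haveI : Fintype P := Fintype.ofFinite _
  let f : Function.End P := fun x => ⟨a x.1, hP _ x.2⟩
  have hf : f ^ 2 ^ 1 = 1 := by
    funext x
    apply Subtype.ext
    show a (a x.1) = x.1
    exact ha _
  have hmod := Equiv.Perm.card_fixedPoints_modEq (f := f) (p := 2) (n := 1) hf
  have hPp : IsPGroup 2 P := hQ.to_subgroup P
  have hnt : Nontrivial P := (Subgroup.nontrivial_iff_ne_bot P).mpr hne
  have h2 : 2 ∣ Fintype.card P := by
    obtain ⟨k, hk⟩ := IsPGroup.iff_card.mp hPp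
    rw [Nat.card_eq_fintype_card] at hk
    rw [hk]
    have hk0 : k ≠ 0 := by
      rintro rfl
      have : Fintype.card P = 1 := by simpa using hk
      have h1 := Fintype.one_lt_card (α := P)
      omega
    exact dvd_pow_self 2 hk0
  have h3 : 2 ∣ Fintype.card (Function.fixedPoints f) := by
    have := (Nat.modEq_zero_iff_dvd.mp (hmod.symm.trans (Nat.modEq_zero_iff_dvd.mpr h2)))
    exact this
  have hone : (1 : P) ∈ Function.fixedPoints f := by
    show f 1 = 1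
    apply Subtype.ext
    show a 1 = 1
    exact map_one a
  haveI : Nonempty (Function.fixedPoints f) := ⟨⟨1, hone⟩⟩
  have h4 : 1 < Fintype.card (Function.fixedPoints f) := by
    have h5 : 0 < Fintype.card (Function.fixedPoints f) := Fintype.card_pos
    obtain ⟨c, hc⟩ := h3
    omega
  obtain ⟨x, hx⟩ := Fintype.exists_ne_of_one_lt_card h4 ⟨1, hone⟩
  refine ⟨x.1.1, x.1.2, ?_, ?_⟩
  · intro h
    apply hx
    apply Subtype.ext
    apply Subtype.ext
    exact h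
  · have := x.2
    have h6 : f x.1 = x.1 := this
    exact congrArg Subtype.val h6

variable {F : Type v} [Field F] {lam : F}

/-- The structure. -/
structure HS (lam : F) (Q : Type u) [Group Q] where
  α : Q ≃* Q
  ρ : Q ≃* Q
  ι : F → Q
  ι_add : ∀ a b, ι (a + b) = ι a * ι b
  ι_inj : ∀ a, ι a = 1 → a = 0
  α_α : ∀ x, α (α x) = x
  αρ : ∀ x, α (ρ x) = ρ (α x)
  fix : ∀ x, α x = x ↔ ∃ a, x = ι a
  ρι : ∀ a, ρ (ι a) = ι (lam * a)

namespace HS

variable {Q : Type u} [Group Q] (S : HS lam Q)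

/-- `w x = x⁻¹ α(x)`. -/
def w (x : Q) : Q := x⁻¹ * S.α x

theorem w_mul (x y : Q) : S.w (x * y) = y⁻¹ * S.w x * y * S.w y := by
  simp only [w, map_mul, mul_inv_rev, mul_assoc, mul_inv_cancel_left]

theorem w_one : S.w 1 = 1 := by simp [w]

theorem α_eq (x : Q) : S.α x = x * S.w x := by simp [w]

theorem w_eq_one_iff (x : Q) : S.w x = 1 ↔ ∃ a, x = S.ι a := by
  rw [← S.fix, w, inv_mul_eq_one]
  exact eq_comm

theorem ι_zero : S.ι 0 = 1 := by
  have h := S.ι_add 0 0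
  rw [add_zero] at h
  exact (mul_eq_left.mp h.symm)

theorem w_ι (a : F) : S.w (S.ι a) = 1 := (S.w_eq_one_iff _).mpr ⟨a, rfl⟩

theorem α_ι (a : F) : S.α (S.ι a) = S.ι a := (S.fix _).mpr ⟨a, rfl⟩

theorem α_w (x : Q) : S.α (S.w x) = (S.w x)⁻¹ := by
  simp [w, S.α_α]

theorem w_w (x : Q) : S.w (S.w x) = (S.w x)⁻¹ * (S.w x)⁻¹ := by
  rw [w.eq_def S (S.w x), S.α_w]

theorem w_ρ (x : Q) : S.w (S.ρ x) = S.ρ (S.w x) := by
  simp [w, S.αρ]

theorem ι_neg [CharP F 2] (a : F) : (S.ι a)⁻¹ = S.ι a := by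
  have h := S.ι_add a a
  rw [CharTwo.add_self_eq_zero, S.ι_zero] at h
  exact inv_eq_of_mul_eq_one_left h.symm

theorem ι_mul_self [CharP F 2] (a : F) : S.ι a * S.ι a = 1 := by
  rw [← S.ι_add, CharTwo.add_self_eq_zero, S.ι_zero]

theorem ι_injective [CharP F 2] {a b : F} (h : S.ι a = S.ι b) : a = b := by
  have h1 : S.ι (a + b) = 1 := by
    rw [S.ι_add, h, S.ι_mul_self]
  have h2 := S.ι_inj _ h1
  exact (CharTwo.add_eq_zero.mp h2)

/-- Powers of `lam` act transitively on the nonzero elements. -/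
theorem all_of_ne (hlam : ∀ a : F, a ≠ 0 → ∃ k : ℕ, a = lam ^ k) (A : F → Prop)
    (hA : ∀ a, A a → A (lam * a)) {a₀ : F} (h0 : a₀ ≠ 0) (h1 : A a₀) (a : F) (ha : a ≠ 0) : A a := by
  obtain ⟨k, hk⟩ := hlam (a / a₀) (div_ne_zero ha h0)
  have h2 : ∀ m : ℕ, A (lam ^ m * a₀) := by
    intro m
    induction m with
    | zero => simpa using h1
    | succ m ih =>
      have := hA _ ih
      rwa [← mul_assoc, ← pow_succ'] at this
  have h3 := h2 k
  rwa [← hk, div_mul_cancel₀ _ h0] at h3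

variable [Finite Q] (hQ : IsPGroup 2 Q) (hlam : ∀ a : F, a ≠ 0 → ∃ k : ℕ, a = lam ^ k)

include hQ hlam

/-- `C_Q(α)` is central. -/
theorem ι_central (a : F) (x : Q) : S.ι a * x = x * S.ι a := by
  have hne : (Subgroup.center Q) ≠ ⊥ := by
    have h1 : S.ι 1 ≠ 1 := fun h => one_ne_zero (S.ι_inj _ h)
    haveI : Nontrivial Q := ⟨⟨S.ι 1, 1, h1⟩⟩
    haveI : Fact (Nat.Prime 2) := ⟨Nat.prime_two⟩
    exact (Subgroup.nontrivial_iff_ne_bot _).mp hQ.center_nontrivial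
  obtain ⟨z, hz, hz1, hzf⟩ := exists_fix_in hQ S.α S.α_α (Subgroup.center Q) (by
    intro y hy
    rw [Subgroup.mem_center_iff] at hy ⊢
    intro g
    have := hy (S.α.symm g)
    have h2 := congrArg S.α this
    simpa using h2) hne
  obtain ⟨a₀, rfl⟩ := (S.fix z).mp hzf
  have ha₀ : a₀ ≠ 0 := by
    rintro rfl
    exact hz1 S.ι_zero
  let A : F → Prop := fun a => S.ι a ∈ Subgroup.center Q
  have hA : ∀ a, A a → A (lam * a) := by
    intro a ha
    show S.ι (lam * a) ∈ Subgroup.center Q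
    rw [← S.ρι]
    have ha' : S.ι a ∈ Subgroup.center Q := ha
    rw [Subgroup.mem_center_iff] at ha' ⊢
    intro g
    have := ha' (S.ρ.symm g)
    have h2 := congrArg S.ρ this
    simpa using h2
  have hall : A a := by
    by_cases h : a = 0
    · subst h
      show S.ι 0 ∈ Subgroup.center Q
      rw [S.ι_zero]
      exact Subgroup.one_mem _
    · exact all_of_ne (lam := lam) hlam A hA ha₀ hz a h
  have h3 : S.ι a ∈ Subgroup.center Q := hall
  exact (Subgroup.mem_center_iff.mp h3 x).symm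

variable [CharP F 2]

theorem w_mul_ι (x : Q) (a : F) : S.w (x * S.ι a) = S.w x := by
  rw [S.w_mul, S.w_ι, mul_one, mul_assoc, ← S.ι_central hQ hlam a (S.w x), inv_mul_cancel_left]

theorem w_ι_mul (x : Q) (a : F) : S.w (S.ι a * x) = S.w x := by
  rw [S.ι_central hQ hlam, S.w_mul_ι hQ hlam]

/-- Equal `w`-values differ by an element of `C`. -/
theorem eq_of_w_eq {x y : Q} (h : S.w x = S.w y) : ∃ a, y = S.ι a * x := by
  have h1 : S.α (y * x⁻¹) = y * x⁻¹ := by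
    have h2 : S.α x = x * S.w y := by rw [← h, S.α_eq]
    rw [map_mul, map_inv, S.α_eq y, h2]
    group
  obtain ⟨a, ha⟩ := (S.fix _).mp h1
  exact ⟨a, by rw [← ha]; group⟩

theorem w_mul_of {x y : Q} {a b : F} (hx : S.w x = S.ι a) (hy : S.w y = S.ι b) :
    S.w (x * y) = S.ι (a + b) := by
  rw [S.w_mul, hx, hy, S.ι_add, mul_assoc y⁻¹, S.ι_central hQ hlam a y, ← mul_assoc, inv_mul_cancel, one_mul]

/-- The subgroup `C_Q(α)`. -/
def C : Subgroup Q where
  carrier := {x | ∃ a, x = S.ι a}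
  mul_mem' := by
    rintro _ _ ⟨a, rfl⟩ ⟨b, rfl⟩
    exact ⟨a + b, (S.ι_add a b).symm⟩
  one_mem' := ⟨0, S.ι_zero.symm⟩
  inv_mem' := by
    rintro _ ⟨a, rfl⟩
    exact ⟨a, S.ι_neg a⟩

omit hQ hlam in
theorem mem_C {x : Q} : x ∈ S.C ↔ ∃ a, x = S.ι a := Iff.rfl

theorem C_normal : S.C.Normal := by
  constructor
  rintro _ ⟨a, rfl⟩ g
  refine ⟨a, ?_⟩
  rw [← S.ι_central hQ hlam a g]
  group

theorem mk_eq_of_w_eq [hN : S.C.Normal] {x y : Q} (h : S.w x = S.w y) : ((x : Q) : Q ⧸ S.C) = y := by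
  obtain ⟨c, hc⟩ := S.eq_of_w_eq hQ hlam h
  rw [QuotientGroup.eq, hc, S.ι_central hQ hlam c, inv_mul_cancel_left]
  exact ⟨c, rfl⟩

omit hQ hlam in
theorem C_map_α : S.C.map S.α.toMonoidHom = S.C := by
  ext x
  constructor
  · rintro ⟨y, ⟨a, rfl⟩, rfl⟩
    exact ⟨a, S.α_ι a⟩
  · rintro ⟨a, rfl⟩
    exact ⟨S.ι a, ⟨a, rfl⟩, S.α_ι a⟩

omit hQ hlam in
theorem C_map_ρ : S.C.map S.ρ.toMonoidHom = S.C := by
  ext x
  constructor
  · rintro ⟨y, ⟨a, rfl⟩, rfl⟩
    exact ⟨lam * a, S.ρι a⟩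
  · rintro ⟨a, rfl⟩
    by_cases hl : lam = 0
    · -- degenerate: `lam = 0`
      have h00 : lam * a = 0 := by rw [hl, zero_mul]
      have h0 : S.ι (lam * a) = 1 := by rw [h00, S.ι_zero]
      have h1 := S.ρι a
      rw [h0] at h1
      have h2 : S.ι a = 1 := by
        have := S.ρ.injective (h1.trans (map_one S.ρ).symm)
        exact this
      exact ⟨1, Subgroup.one_mem _, by rw [h2]; exact map_one S.ρ⟩
    · refine ⟨S.ι (lam⁻¹ * a), ⟨lam⁻¹ * a, rfl⟩, ?_⟩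
      show S.ρ (S.ι (lam⁻¹ * a)) = _
      rw [S.ρι, mul_inv_cancel_left₀ hl]

/-- If `C ≠ Q` there is an element outside `C` with `w x ∈ C`. -/
theorem exists_w_mem (hne : ∃ x, ∀ a, x ≠ S.ι a) : ∃ x a, (∀ b, x ≠ S.ι b) ∧ S.w x = S.ι a := by
  haveI hN : S.C.Normal := S.C_normal hQ hlam
  let abar : (Q ⧸ S.C) ≃* (Q ⧸ S.C) := QuotientGroup.congr S.C S.C S.α S.C_map_α
  have habar : ∀ x : Q, abar (x : Q ⧸ S.C) = ((S.α x : Q) : Q ⧸ S.C) := fun x => rfl
  have hp : IsPGroup 2 (Q ⧸ S.C) := hQ.to_quotient S.C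
  obtain ⟨x₀, hx₀⟩ := hne
  have hbot : (⊤ : Subgroup (Q ⧸ S.C)) ≠ ⊥ := by
    intro h
    have h1 : ((x₀ : Q) : Q ⧸ S.C) ∈ (⊤ : Subgroup (Q ⧸ S.C)) := Subgroup.mem_top _
    rw [h, Subgroup.mem_bot, QuotientGroup.eq_one_iff] at h1
    obtain ⟨a, ha⟩ := h1
    exact hx₀ a ha
  obtain ⟨xb, -, hx1, hxf⟩ := exists_fix_in hp abar (by
    intro x
    induction x using QuotientGroup.induction_on with
    | H x => rw [habar, habar, S.α_α]) ⊤ (fun _ _ => Subgroup.mem_top _) hbot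
  induction xb using QuotientGroup.induction_on with
  | H x =>
    rw [habar] at hxf
    have h1 : S.w x ∈ S.C := by
      have := QuotientGroup.eq.mp hxf.symm
      exact this
    obtain ⟨a, ha⟩ := h1
    refine ⟨x, a, ?_, ha⟩
    intro b hb
    apply hx1
    rw [QuotientGroup.eq_one_iff]
    exact ⟨b, hb⟩

/-- Lifting through `w`: first level. -/
theorem exists_w_eq (hne : ∃ x, ∀ a, x ≠ S.ι a) (a : F) : ∃ x, S.w x = S.ι a := by
  by_cases ha : a = 0
  · exact ⟨1, by rw [S.w_one, ha, S.ι_zero]⟩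
  obtain ⟨x, a₀, hx, hxa⟩ := S.exists_w_mem hQ hlam hne
  have ha₀ : a₀ ≠ 0 := by
    rintro rfl
    rw [S.ι_zero, S.w_eq_one_iff] at hxa
    obtain ⟨b, hb⟩ := hxa
    exact hx b hb
  refine all_of_ne (lam := lam) hlam (fun a => ∃ x, S.w x = S.ι a) ?_ ha₀ ⟨x, hxa⟩ a ha
  rintro b ⟨y, hy⟩
  exact ⟨S.ρ y, by rw [S.w_ρ, hy, S.ρι]⟩

/-- The section of `w` over `C`. -/
noncomputable def sec (hne : ∃ x, ∀ a, x ≠ S.ι a) (a : F) : Q :=
  Classical.choose (S.exists_w_eq hQ hlam hne a)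

theorem w_sec (hne : ∃ x, ∀ a, x ≠ S.ι a) (a : F) : S.w (S.sec hQ hlam hne a) = S.ι a :=
  Classical.choose_spec (S.exists_w_eq hQ hlam hne a)

/-- The structure on the quotient by `C`. -/
noncomputable def quot (hne : ∃ x, ∀ a, x ≠ S.ι a) [hN : S.C.Normal] : HS lam (Q ⧸ S.C) where
  α := QuotientGroup.congr S.C S.C S.α S.C_map_α
  ρ := QuotientGroup.congr S.C S.C S.ρ S.C_map_ρ
  ι a := ((S.sec hQ hlam hne a : Q) : Q ⧸ S.C)
  ι_add a b := by
    have h1 : S.w (S.sec hQ hlam hne a * S.sec hQ hlam hne b) = S.w (S.sec hQ hlam hne (a + b)) := by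
      rw [S.w_mul_of hQ hlam (S.w_sec hQ hlam hne a) (S.w_sec hQ hlam hne b), S.w_sec]
    rw [← QuotientGroup.mk_mul]
    exact (S.mk_eq_of_w_eq hQ hlam h1).symm
  ι_inj a h := by
    rw [QuotientGroup.eq_one_iff] at h
    obtain ⟨b, hb⟩ := h
    have h1 := S.w_sec hQ hlam hne a
    rw [hb, S.w_ι] at h1
    exact S.ι_inj a h1.symm
  α_α x := by
    induction x using QuotientGroup.induction_on with
    | H x =>
      show ((S.α (S.α x) : Q) : Q ⧸ S.C) = x
      rw [S.α_α]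
  αρ x := by
    induction x using QuotientGroup.induction_on with
    | H x =>
      show ((S.α (S.ρ x) : Q) : Q ⧸ S.C) = ((S.ρ (S.α x) : Q) : Q ⧸ S.C)
      rw [S.αρ]
  fix x := by
    induction x using QuotientGroup.induction_on with
    | H x =>
      constructor
      · intro h
        have h' : ((S.α x : Q) : Q ⧸ S.C) = x := h
        have h1 : S.w x ∈ S.C := QuotientGroup.eq.mp h'.symm
        obtain ⟨a, ha⟩ := h1
        refine ⟨a, ?_⟩
        have h2 : S.w x = S.w (S.sec hQ hlam hne a) := by rw [ha, S.w_sec]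
        exact S.mk_eq_of_w_eq hQ hlam h2
      · rintro ⟨a, ha⟩
        have ha' : ((x : Q) : Q ⧸ S.C) = ((S.sec hQ hlam hne a : Q) : Q ⧸ S.C) := ha
        obtain ⟨c, hc⟩ := QuotientGroup.eq.mp ha'
        have h3 : S.sec hQ hlam hne a = x * S.ι c := by rw [← hc]; group
        have h4 : S.w x = S.ι a := by
          have h5 := S.w_sec hQ hlam hne a
          rwa [h3, S.w_mul_ι hQ hlam] at h5
        show ((S.α x : Q) : Q ⧸ S.C) = x
        symm
        rw [QuotientGroup.eq]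
        exact ⟨a, h4⟩
  ρι a := by
    show ((S.ρ (S.sec hQ hlam hne a) : Q) : Q ⧸ S.C) = ((S.sec hQ hlam hne (lam * a) : Q) : Q ⧸ S.C)
    have h1 : S.w (S.ρ (S.sec hQ hlam hne a)) = S.w (S.sec hQ hlam hne (lam * a)) := by
      rw [S.w_ρ, S.w_sec, S.w_sec, S.ρι]
    exact S.mk_eq_of_w_eq hQ hlam h1

variable (hne : ∃ x, ∀ a, x ≠ S.ι a) [hN : S.C.Normal]

theorem quot_mk_w (x : Q) : (S.quot hQ hlam hne).w (x : Q ⧸ S.C) = ((S.w x : Q) : Q ⧸ S.C) := rfl

theorem quot_mk_ρ (x : Q) : (S.quot hQ hlam hne).ρ (x : Q ⧸ S.C) = ((S.ρ x : Q) : Q ⧸ S.C) := rfl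

theorem quot_mk_α (x : Q) : (S.quot hQ hlam hne).α (x : Q ⧸ S.C) = ((S.α x : Q) : Q ⧸ S.C) := rfl

theorem mk_eq_ι_iff (x : Q) (a : F) :
    ((x : Q) : Q ⧸ S.C) = (S.quot hQ hlam hne).ι a ↔ S.w x = S.ι a := by
  constructor
  · intro h
    have h' : ((x : Q) : Q ⧸ S.C) = ((S.sec hQ hlam hne a : Q) : Q ⧸ S.C) := h
    obtain ⟨c, hc⟩ := QuotientGroup.eq.mp h'
    have h3 : S.sec hQ hlam hne a = x * S.ι c := by rw [← hc]; group
    have h5 := S.w_sec hQ hlam hne a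
    rwa [h3, S.w_mul_ι hQ hlam] at h5
  · intro h
    have h2 : S.w x = S.w (S.sec hQ hlam hne a) := by rw [h, S.w_sec]
    exact S.mk_eq_of_w_eq hQ hlam h2

omit hQ hlam in
theorem mk_eq_one_iff (x : Q) : ((x : Q) : Q ⧸ S.C) = 1 ↔ ∃ a, x = S.ι a :=
  QuotientGroup.eq_one_iff _

end HS

end Cfsg.Agent.Lib.LayerHS
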