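import Mathlib
import Cfsg.Agent.Lib.LayerHS

/-!
# Equivariant forms on `F`, iterates of `w`, and the abelian case
-/

set_option autoImplicit false
set_option linter.style.haveILetI false
set_option linter.unusedSectionVars false
set_option linter.unusedVariables false

namespace Cfsg.Agent.Lib.LayerHS

open scoped commutatorElement

universe u v

variable {F : Type v} [Field F] [Finite F] [CharP F 2] {lam : F}

omit [Finite F] [CharP F 2] in
theorem add_self_zero_of_eq {a b : F} (h : a = a + b) : b = 0 := left_eq_add.mp h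

/-- A biadditive equivariant map on `F` is `κ √(uv)`. -/
theorem equi_form (hlam : ∀ a : F, a ≠ 0 → ∃ k : ℕ, a = lam ^ k) (G : F → F → F)
    (Gl : ∀ a b c, G (a + b) c = G a c + G b c) (Gr : ∀ a b c, G a (b + c) = G a b + G a c)
    (Geq : ∀ a b, G (lam * a) (lam * b) = lam * G a b) (u v : F) :
    (G u v) ^ 2 = (G 1 1) ^ 2 * u * v := by
  have h2 : (2 : F) = 0 := CharTwo.two_eq_zero
  have G0l : ∀ c, G 0 c = 0 := by
    intro c
    have := Gl 0 0 c
    rw [add_zero] at this
    exact add_self_zero_of_eq this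
  have G0r : ∀ c, G c 0 = 0 := by
    intro c
    have := Gr c 0 0
    rw [add_zero] at this
    exact add_self_zero_of_eq this
  have S0 : ∀ (t : F) (k : ℕ), G (lam ^ k) (t * lam ^ k) = lam ^ k * G 1 t := by
    intro t k
    induction k with
    | zero => simp
    | succ k ih =>
      have h1 := Geq (lam ^ k) (t * lam ^ k)
      rw [ih] at h1
      have e1 : lam * lam ^ k = lam ^ (k + 1) := (pow_succ' lam k).symm
      have e2 : lam * (t * lam ^ k) = t * lam ^ (k + 1) := by rw [pow_succ]; ring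
      rw [e1, e2] at h1
      rw [h1]; ring
  have S1 : ∀ (t u : F), G u (t * u) = u * G 1 t := by
    intro t u
    by_cases hu : u = 0
    · subst hu; simp [G0l]
    · obtain ⟨k, rfl⟩ := hlam u hu
      exact S0 t k
  have S2 : ∀ t a b : F, G a (t * b) = G b (t * a) := by
    intro t a b
    have h := S1 t (a + b)
    rw [mul_add, Gr, Gl, Gl, S1 t a, S1 t b] at h
    linear_combination h - (G b (t * a)) * h2
  have S3 : ∀ a b : F, G a b = G b a := by
    intro a b
    have := S2 1 a b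
    simpa using this
  have S4 : ∀ a b : F, G a b = G 1 (a * b) := by
    intro a b
    have := S2 a 1 b
    rw [mul_one] at this
    rw [this, S3]
  have Hh : ∀ x : F, G 1 (lam ^ 2 * x) = lam * G 1 x := by
    intro x
    have h1 := Geq 1 x
    rw [S4, mul_one] at h1
    rw [← h1]
    congr 1
    ring
  have H1 : ∀ (k : ℕ) (x : F), (G 1 ((lam ^ 2) ^ k * x)) ^ 2 = (lam ^ 2) ^ k * (G 1 x) ^ 2 := by
    intro k x
    induction k with
    | zero => simp
    | succ k ih =>
      have e : (lam ^ 2) ^ (k + 1) * x = lam ^ 2 * ((lam ^ 2) ^ k * x) := by rw [pow_succ]; ring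
      rw [e, Hh, mul_pow, ih, pow_succ (lam ^ 2) k]
      ring
  have H2 : ∀ y : F, (G 1 y) ^ 2 = y * (G 1 1) ^ 2 := by
    intro y
    by_cases hy : y = 0
    · subst hy; simp [G0r]
    · have hsq : IsSquare y := by
        haveI : Fintype F := Fintype.ofFinite F
        exact FiniteField.isSquare_of_char_two (CharP.ringChar_of_prime_eq_zero Nat.prime_two (by exact_mod_cast CharP.cast_eq_zero F 2)) y
      obtain ⟨r, hr⟩ := hsq
      have hr0 : r ≠ 0 := by
        rintro rfl
        apply hy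
        rw [hr]; ring
      obtain ⟨k, hk⟩ := hlam r hr0
      have e : y = (lam ^ 2) ^ k := by
        rw [hr, hk, ← pow_mul, two_mul, pow_add]
      have h3 := H1 k 1
      rw [mul_one, ← e] at h3
      exact h3
  rw [S4, H2]
  ring

/-- Alternating equivariant forms factoring through an equivariant surjection vanish. -/
theorem factor_zero {R : Type u} [Group R] (hlam : ∀ a : F, a ≠ 0 → ∃ k : ℕ, a = lam ^ k)
    (ρ : R → R) (ρ_mul : ∀ x y, ρ (x * y) = ρ x * ρ y) (Φ : R → F)
    (Φ_mul : ∀ x y, Φ (x * y) = Φ x + Φ y) (Φ_ρ : ∀ x, Φ (ρ x) = lam * Φ x)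
    (Φ_surj : ∀ a, ∃ x, Φ x = a) (f : R → R → F)
    (fl : ∀ x y z, f (x * y) z = f x z + f y z) (fr : ∀ x y z, f x (y * z) = f x y + f x z)
    (falt : ∀ x, f x x = 0) (fρ : ∀ x y, f (ρ x) (ρ y) = lam * f x y)
    (hk : ∀ k y, Φ k = 0 → f k y = 0) : ∀ x y, f x y = 0 := by
  have h2 : (2 : F) = 0 := CharTwo.two_eq_zero
  have fsym : ∀ x y, f x y = f y x := by
    intro x y
    have h := falt (x * y)
    rw [fl, fr, fr, falt, falt] at h
    linear_combination h - (f y x) * h2
  have resp_l : ∀ x x' y, Φ x = Φ x' → f x y = f x' y := by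
    intro x x' y h
    have h1 : Φ (x' * x⁻¹) = 0 := by
      have h3 := Φ_mul (x' * x⁻¹) x
      rw [inv_mul_cancel_right, h] at h3
      linear_combination -h3
    have h3 := fl (x' * x⁻¹) x y
    rw [inv_mul_cancel_right, hk _ _ h1, zero_add] at h3
    exact h3.symm
  have resp_r : ∀ x y y', Φ y = Φ y' → f x y = f x y' := by
    intro x y y' h
    rw [fsym x y, fsym x y']
    exact resp_l _ _ _ h
  choose s hs using Φ_surj
  have key := equi_form hlam (fun a b => f (s a) (s b))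
    (by
      intro a b c
      show f (s (a + b)) (s c) = f (s a) (s c) + f (s b) (s c)
      rw [← fl]
      exact resp_l _ _ _ (by rw [hs, Φ_mul, hs, hs]))
    (by
      intro a b c
      show f (s a) (s (b + c)) = f (s a) (s b) + f (s a) (s c)
      rw [← fr]
      exact resp_r _ _ _ (by rw [hs, Φ_mul, hs, hs]))
    (by
      intro a b
      show f (s (lam * a)) (s (lam * b)) = lam * f (s a) (s b)
      rw [← fρ]
      rw [resp_l _ (ρ (s a)) _ (by rw [hs, Φ_ρ, hs])]
      exact resp_r _ _ _ (by rw [hs, Φ_ρ, hs]))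
  intro x y
  have h3 : f x y = f (s (Φ x)) (s (Φ y)) := by
    rw [resp_l x (s (Φ x)) y (by rw [hs])]
    exact resp_r _ _ _ (by rw [hs])
  have h4 := key (Φ x) (Φ y)
  simp only [falt, ne_eq, OfNat.ofNat_ne_zero, not_false_eq_true, zero_pow, zero_mul] at h4
  rw [h3]
  exact pow_eq_zero_iff (two_ne_zero) |>.mp h4

/-- Abstract pairing lemma. -/
theorem pair_abstract {Q : Type u} [Group Q] (hlam : ∀ a : F, a ≠ 0 → ∃ k : ℕ, a = lam ^ k)
    (P T : Q → F → Prop) (g : Q → Q → F) (ρ : Q → Q)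
    (hP : ∀ u, ∃ z, P z u) (hT : ∀ v, ∃ y, T y v)
    (Pm : ∀ z z' u u', P z u → P z' u' → P (z * z') (u + u'))
    (Tm : ∀ z z' u u', T z u → T z' u' → T (z * z') (u + u'))
    (Pρ : ∀ z u, P z u → P (ρ z) (lam * u)) (Tρ : ∀ z u, T z u → T (ρ z) (lam * u))
    (gl : ∀ z z' y u u' v, P z u → P z' u' → T y v → g (z * z') y = g z y + g z' y)
    (gr : ∀ z y y' u v v', P z u → T y v → T y' v' → g z (y * y') = g z y + g z y')
    (gρ : ∀ z y u v, P z u → T y v → g (ρ z) (ρ y) = lam * g z y)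
    (gw : ∀ z z' y y' u v, P z u → P z' u → T y v → T y' v → g z y = g z' y') :
    ∃ κ : F, ∀ z y u v, P z u → T y v → (g z y) ^ 2 = κ ^ 2 * u * v := by
  choose s hs using hP
  choose t ht using hT
  have key := equi_form hlam (fun a b => g (s a) (t b))
    (by
      intro a b c
      show g (s (a + b)) (t c) = g (s a) (t c) + g (s b) (t c)
      rw [← gl _ _ _ _ _ _ (hs a) (hs b) (ht c)]
      exact gw _ _ _ _ _ _ (hs _) (Pm _ _ _ _ (hs a) (hs b)) (ht c) (ht c))
    (by
      intro a b c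
      show g (s a) (t (b + c)) = g (s a) (t b) + g (s a) (t c)
      rw [← gr _ _ _ _ _ _ (hs a) (ht b) (ht c)]
      exact gw _ _ _ _ _ _ (hs _) (hs _) (ht _) (Tm _ _ _ _ (ht b) (ht c)))
    (by
      intro a b
      show g (s (lam * a)) (t (lam * b)) = lam * g (s a) (t b)
      rw [← gρ _ _ _ _ (hs a) (ht b)]
      exact gw _ _ _ _ _ _ (hs _) (Pρ _ _ (hs a)) (ht _) (Tρ _ _ (ht b)))
  refine ⟨g (s 1) (t 1), ?_⟩
  intro z y u v hz hy
  have h1 : g z y = g (s u) (t v) := gw _ _ _ _ _ _ hz (hs u) hy (ht v)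
  rw [h1]
  exact key u v

namespace HS

variable {Q : Type u} [Group Q] (S : HS lam Q)

theorem iter_ρ (k : ℕ) (x : Q) : S.w^[k] (S.ρ x) = S.ρ (S.w^[k] x) := by
  induction k with
  | zero => rfl
  | succ k ih => rw [Function.iterate_succ_apply', Function.iterate_succ_apply', ih, S.w_ρ]

theorem iter_w_eq (m : ℕ) (x : Q) : S.w^[m] (S.w x) = (S.w x) ^ ((-2 : ℤ) ^ m) := by
  induction m with
  | zero => simp
  | succ m ih =>
    rw [Function.iterate_succ_apply', ih]
    show ((S.w x) ^ ((-2 : ℤ) ^ m))⁻¹ * S.α ((S.w x) ^ ((-2 : ℤ) ^ m)) = _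
    rw [map_zpow, S.α_w, inv_zpow, ← zpow_neg, ← zpow_add, pow_succ]
    congr 1
    ring

variable [Finite Q] (hQ : IsPGroup 2 Q)

include hQ

theorem exists_top : ∃ k : ℕ, ∀ x, S.w^[k] x = 1 := by
  obtain ⟨e, he⟩ := IsPGroup.iff_card.mp hQ
  refine ⟨e + 1, ?_⟩
  intro x
  rw [Function.iterate_succ_apply, iter_w_eq]
  have h1 : (S.w x) ^ (2 ^ e) = 1 := by
    rw [← he]; exact pow_card_eq_one'
  have h3 : ((-2 : ℤ) ^ e) = (-1) ^ e * 2 ^ e := by
    rw [← mul_pow]; norm_num
  have h4 : (S.w x) ^ ((2 : ℤ) ^ e) = 1 := by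
    have : ((2 : ℤ) ^ e) = ((2 ^ e : ℕ) : ℤ) := by push_cast; rfl
    rw [this, zpow_natCast, h1]
  rw [h3, mul_comm, zpow_mul, h4, one_zpow]

end HS

theorem HS.lift_iter (hlam : ∀ a : F, a ≠ 0 → ∃ k : ℕ, a = lam ^ k) :
    ∀ (k : ℕ) {Q : Type u} [Group Q] [Finite Q] (S : HS lam Q) (hQ : IsPGroup 2 Q)
      (hy : ∃ y, S.w^[k + 1] y ≠ 1) (a : F), ∃ y, S.w^[k + 1] y = S.ι a := by
  intro k
  induction k with
  | zero =>
    intro Q _ _ S hQ hy a
    simp only [zero_add, Function.iterate_one] at hy ⊢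
    obtain ⟨y, hy⟩ := hy
    refine S.exists_w_eq hQ hlam ⟨y, ?_⟩ a
    rintro b rfl
    exact hy (S.w_ι b)
  | succ k ih =>
    intro Q _ _ S hQ hy a
    obtain ⟨y, hy⟩ := hy
    rw [Function.iterate_succ_apply'] at hy
    have hne : ∃ x, ∀ a, x ≠ S.ι a := by
      refine ⟨S.w^[k + 1] y, ?_⟩
      intro b hb
      rw [hb] at hy
      exact hy (S.w_ι b)
    haveI hN : S.C.Normal := S.C_normal hQ hlam
    have iter : ∀ (m : ℕ) (x : Q), (S.quot hQ hlam hne).w^[m] (x : Q ⧸ S.C) = ((S.w^[m] x : Q) : Q ⧸ S.C) := by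
      intro m x
      induction m with
      | zero => rfl
      | succ m ihm =>
        rw [Function.iterate_succ_apply', Function.iterate_succ_apply', ihm, S.quot_mk_w hQ hlam hne]
    have hyb : ∃ y', (S.quot hQ hlam hne).w^[k + 1] y' ≠ 1 := by
      refine ⟨(y : Q ⧸ S.C), ?_⟩
      rw [iter]
      intro h
      obtain ⟨b, hb⟩ := (S.mk_eq_one_iff _).mp h
      rw [hb] at hy
      exact hy (S.w_ι b)
    obtain ⟨y', hy'⟩ := ih (S.quot hQ hlam hne) (hQ.to_quotient S.C) hyb a
    induction y' using QuotientGroup.induction_on with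
    | H y' =>
      rw [iter, S.mk_eq_ι_iff hQ hlam hne] at hy'
      refine ⟨y', ?_⟩
      rw [Function.iterate_succ_apply', hy']

/-- The log on `C`. -/
noncomputable def HS.log {Q : Type u} [Group Q] (S : HS lam Q) (x : Q) : F :=
  open Classical in if h : ∃ a, x = S.ι a then h.choose else 0

theorem HS.log_ι {Q : Type u} [Group Q] (S : HS lam Q) (a : F) : S.log (S.ι a) = a := by
  have h : ∃ b, S.ι a = S.ι b := ⟨a, rfl⟩
  unfold HS.log
  rw [dif_pos h]
  exact (S.ι_injective h.choose_spec).symm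

/-- The form vanishes on the abelian quotient when there are at least three layers. -/
theorem ab_form {R : Type u} [Group R] [Finite R] (hcm : ∀ x y : R, x * y = y * x) (S : HS lam R)
    (hQ : IsPGroup 2 R) (hlam : ∀ a : F, a ≠ 0 → ∃ k : ℕ, a = lam ^ k)
    (hy : ∃ y, S.w (S.w y) ≠ 1) (f : R → R → F)
    (fl : ∀ x y z, f (x * y) z = f x z + f y z) (fr : ∀ x y z, f x (y * z) = f x y + f x z)
    (falt : ∀ x, f x x = 0) (fρ : ∀ x y, f (S.ρ x) (S.ρ y) = lam * f x y) : ∀ x y, f x y = 0 := by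
  classical
  have h2 : (2 : F) = 0 := CharTwo.two_eq_zero
  have f1 : ∀ z, f 1 z = 0 := by
    intro z
    have := fl 1 1 z
    rw [one_mul] at this
    exact add_self_zero_of_eq this
  have finv : ∀ x z, f x⁻¹ z = f x z := by
    intro x z
    have := fl x⁻¹ x z
    rw [inv_mul_cancel, f1] at this
    linear_combination -this - f x z * h2
  -- the `w` map is a homomorphism
  have wm : ∀ x y, S.w (x * y) = S.w x * S.w y := by
    intro x y
    rw [S.w_mul]
    rw [hcm y⁻¹ (S.w x), mul_assoc (S.w x), inv_mul_cancel, mul_one]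
  have wit : ∀ (i : ℕ) (x y : R), S.w^[i] (x * y) = S.w^[i] x * S.w^[i] y := by
    intro i x y
    induction i with
    | zero => rfl
    | succ i ih => rw [Function.iterate_succ_apply', Function.iterate_succ_apply', Function.iterate_succ_apply', ih, wm]
  have wit1 : ∀ i : ℕ, S.w^[i] 1 = 1 := by
    intro i
    induction i with
    | zero => rfl
    | succ i ih => rw [Function.iterate_succ_apply', ih, S.w_one]
  have witinv : ∀ (i : ℕ) (x : R), S.w^[i] x⁻¹ = (S.w^[i] x)⁻¹ := by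
    intro i x
    have := wit i x⁻¹ x
    rw [inv_mul_cancel, wit1] at this
    exact eq_inv_of_mul_eq_one_left this.symm
  -- `f` vanishes on `C`
  have hC : ∀ a y, f (S.ι a) y = 0 := by
    intro a y
    obtain ⟨t, ht⟩ := HS.lift_iter hlam 1 S hQ (by simpa using hy) a
    have ht' : S.w (S.w t) = S.ι a := ht
    rw [← ht', S.w_w, fl]
    linear_combination (f (S.w t)⁻¹ y) * h2
  -- `f` vanishes on `w R`
  have hW : ∀ x y, f (S.w x) y = 0 := by
    intro x y
    have h1 : S.α (x * S.α x) = x * S.α x := by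
      rw [map_mul, S.α_α, hcm]
    obtain ⟨a, ha⟩ := (S.fix _).mp h1
    have h3 := hC a y
    rw [← ha, fl] at h3
    rw [HS.w, fl, finv]
    exact h3
  -- the top
  obtain ⟨k₀, hk₀⟩ := S.exists_top hQ
  have hex : ∃ k, ∀ x, S.w^[k] x = 1 := ⟨k₀, hk₀⟩
  let k := Nat.find hex
  have hk : ∀ x, S.w^[k] x = 1 := Nat.find_spec hex
  have hkmin : ∀ i, i < k → ∃ x, S.w^[i] x ≠ 1 := by
    intro i hi
    have := Nat.find_min hex hi
    push Not at this
    exact this
  have hk2 : 2 < k := by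
    by_contra hle
    push Not at hle
    obtain ⟨y, hy⟩ := hy
    apply hy
    have h3 : S.w^[2] y = 1 := by
      have h4 : 2 = (2 - k) + k := by omega
      rw [h4, Function.iterate_add_apply, hk, wit1]
    exact h3
  obtain ⟨m, hm⟩ : ∃ m, k = m + 1 := ⟨k - 1, by omega⟩
  have hCm : ∀ x, ∃ a, S.w^[m] x = S.ι a := by
    intro x
    have h3 := hk x
    rw [hm, Function.iterate_succ_apply'] at h3
    exact (S.w_eq_one_iff _).mp h3
  choose Φ hΦ using hCm
  have Φ_mul : ∀ x y, Φ (x * y) = Φ x + Φ y := by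
    intro x y
    apply S.ι_injective
    rw [← hΦ, S.ι_add, ← hΦ, ← hΦ, wit]
  have Φ_ρ : ∀ x, Φ (S.ρ x) = lam * Φ x := by
    intro x
    apply S.ι_injective
    rw [← hΦ, S.iter_ρ, hΦ, S.ρι]
  have Φ_surj : ∀ a, ∃ x, Φ x = a := by
    intro a
    obtain ⟨m', hm'⟩ : ∃ m', m = m' + 1 := ⟨m - 1, by omega⟩
    obtain ⟨x, hx⟩ := hkmin m (by omega)
    subst hm'
    obtain ⟨y, hy⟩ := HS.lift_iter hlam m' S hQ ⟨x, hx⟩ a
    refine ⟨y, S.ι_injective ?_⟩
    rw [← hΦ, hy]
  have hker : ∀ (i : ℕ), i ≤ m → ∀ x, S.w^[i] x = 1 → ∃ t, x = S.w t := by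
    intro i
    induction i with
    | zero =>
      intro _ x hx
      exact ⟨1, by rw [S.w_one]; exact hx⟩
    | succ i ih =>
      intro hi x hx
      rw [Function.iterate_succ_apply'] at hx
      obtain ⟨a, ha⟩ := (S.w_eq_one_iff _).mp hx
      obtain ⟨x₀, hx₀⟩ := hkmin (i + 1) (by omega)
      obtain ⟨y, hy⟩ := HS.lift_iter hlam i S hQ ⟨x₀, hx₀⟩ a
      rw [Function.iterate_succ_apply] at hy
      have h3 : S.w^[i] (x * (S.w y)⁻¹) = 1 := by
        rw [wit, witinv, ha, hy, mul_inv_cancel]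
      obtain ⟨t, ht⟩ := ih (by omega) _ h3
      refine ⟨t * y, ?_⟩
      rw [wm, ← ht, inv_mul_cancel_right]
  exact factor_zero hlam S.ρ (fun x y => map_mul S.ρ x y) Φ Φ_mul Φ_ρ Φ_surj f fl fr falt fρ (by
    intro k' y hk'
    have h3 : S.w^[m] k' = 1 := by rw [hΦ, hk', S.ι_zero]
    obtain ⟨t, ht⟩ := hker m le_rfl k' h3
    rw [ht]
    exact hW t y)

end Cfsg.Agent.Lib.LayerHS
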