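import Mathlib
import Cfsg.Agent.Lib.LayerForm

/-!
# Structure of the 2-groups `HS`: non-abelian implies exactly three layers
-/

set_option autoImplicit false
set_option linter.style.haveILetI false
set_option linter.unusedSectionVars false
set_option linter.unusedVariables false

namespace Cfsg.Agent.Lib.LayerHS

open scoped commutatorElement

universe u v

variable {F : Type v} [Field F] [Finite F] [CharP F 2] {lam : F}

namespace HS

variable {Q : Type u} [Group Q] (S : HS lam Q)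

/-- The conclusion of the structure theorem. -/
structure Good (S : HS lam Q) : Prop where
  comm : ∀ x y : Q, ∃ a, ⁅x, y⁆ = S.ι a
  top : ∀ x, S.w (S.w (S.w x)) = 1
  sq : ∀ y : Q, ∃ a, y * y = S.ι a
  pair : ∀ z y u v t, S.w z = S.ι u → S.w (S.w y) = S.ι v → ⁅z, y⁆ = S.ι t → t ^ 2 = u * v

variable [Finite Q] (hQ : IsPGroup 2 Q) (hlam : ∀ a : F, a ≠ 0 → ∃ k : ℕ, a = lam ^ k)

include hQ hlam

theorem conj_ι (y : Q) (a : F) : y⁻¹ * S.ι a * y = S.ι a := by
  rw [mul_assoc, S.ι_central hQ hlam a y, inv_mul_cancel_left]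

theorem conj_ι' (y : Q) (a : F) : y * S.ι a * y⁻¹ = S.ι a := by
  rw [← S.ι_central hQ hlam a y, mul_inv_cancel_right]

theorem conj_ι2 (y : Q) (a : F) : S.ι a * y * (S.ι a)⁻¹ = y := by
  rw [S.ι_central hQ hlam a y, mul_inv_cancel_right]

theorem comm_mul_l {x y z : Q} {a b : F} (hx : ⁅x, z⁆ = S.ι a) (hy : ⁅y, z⁆ = S.ι b) :
    ⁅x * y, z⁆ = S.ι (a + b) := by
  have hc := S.ι_central hQ hlam b x
  have h1 : y * z * y⁻¹ = S.ι b * z := by rw [← hy, commutatorElement_def]; group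
  calc ⁅x * y, z⁆ = x * (y * z * y⁻¹) * x⁻¹ * z⁻¹ := by rw [commutatorElement_def]; group
    _ = (x * S.ι b) * z * x⁻¹ * z⁻¹ := by rw [h1]; group
    _ = S.ι b * (x * z * x⁻¹ * z⁻¹) := by rw [← hc]; group
    _ = S.ι b * ⁅x, z⁆ := by rw [commutatorElement_def]
    _ = S.ι (a + b) := by rw [hx, ← S.ι_add, add_comm]

theorem comm_mul_r {x y z : Q} {a b : F} (hy : ⁅x, y⁆ = S.ι a) (hz : ⁅x, z⁆ = S.ι b) :
    ⁅x, y * z⁆ = S.ι (a + b) := by
  have h1 : z * x⁻¹ * z⁻¹ = x⁻¹ * S.ι b := by rw [← hz, commutatorElement_def]; group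
  calc ⁅x, y * z⁆ = x * y * (z * x⁻¹ * z⁻¹) * y⁻¹ := by rw [commutatorElement_def]; group
    _ = (x * y * x⁻¹) * (S.ι b * y⁻¹) := by rw [h1]; group
    _ = (x * y * x⁻¹) * (y⁻¹ * S.ι b) := by rw [S.ι_central hQ hlam b y⁻¹]
    _ = ⁅x, y⁆ * S.ι b := by rw [commutatorElement_def]; group
    _ = S.ι (a + b) := by rw [hy, S.ι_add]

/-- On a group with `Q' ≤ C` and `w³ = 1`, the map `w²` is additive. -/
theorem w2_mul (hcomm : ∀ x y : Q, ∃ a, ⁅x, y⁆ = S.ι a) (htop : ∀ x, S.w (S.w (S.w x)) = 1) (x y : Q) :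
    S.w (S.w (x * y)) = S.w (S.w x) * S.w (S.w y) := by
  obtain ⟨c, hc⟩ := hcomm y⁻¹ (S.w x)
  have h1 : y⁻¹ * S.w x * y = S.ι c * S.w x := by
    rw [← hc, commutatorElement_def]; group
  have h2 : S.w (x * y) = S.ι c * (S.w x * S.w y) := by
    rw [S.w_mul, h1, mul_assoc]
  obtain ⟨v, hv⟩ := (S.w_eq_one_iff _).mp (htop x)
  rw [h2, S.w_ι_mul hQ hlam, S.w_mul, hv, S.conj_ι hQ hlam]

theorem caseA (hcomm : ∀ x y : Q, ∃ a, ⁅x, y⁆ = S.ι a) (hna : ∃ x y : Q, x * y ≠ y * x) : S.Good := by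
  classical
  have h2 : (2 : F) = 0 := CharTwo.two_eq_zero
  let c : Q → Q → F := fun x y => S.log ⁅x, y⁆
  have hc : ∀ x y, ⁅x, y⁆ = S.ι (c x y) := by
    intro x y
    obtain ⟨a, ha⟩ := hcomm x y
    show _ = S.ι (S.log _)
    rw [ha, S.log_ι]
  have c_eq : ∀ x y t, ⁅x, y⁆ = S.ι t → c x y = t := by
    intro x y t h
    show S.log _ = t
    rw [h, S.log_ι]
  have cl : ∀ x y z, c (x * y) z = c x z + c y z := fun x y z =>
    c_eq _ _ _ (S.comm_mul_l hQ hlam (hc x z) (hc y z))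
  have cr : ∀ x y z, c x (y * z) = c x y + c x z := fun x y z =>
    c_eq _ _ _ (S.comm_mul_r hQ hlam (hc x y) (hc x z))
  have calt : ∀ x, c x x = 0 := fun x => c_eq _ _ _ (by rw [commutatorElement_self, S.ι_zero])
  have cρ : ∀ x y, c (S.ρ x) (S.ρ y) = lam * c x y := by
    intro x y
    apply c_eq
    rw [← map_commutatorElement, hc, S.ρι]
  have cιl : ∀ a y, c (S.ι a) y = 0 := by
    intro a y
    apply c_eq
    rw [S.ι_zero, commutatorElement_eq_one_iff_mul_comm]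
    exact S.ι_central hQ hlam a y
  have csym : ∀ x y, c x y = c y x := by
    intro x y
    have h := calt (x * y)
    rw [cl, cr, cr, calt, calt] at h
    linear_combination h - (c y x) * h2
  have cιr : ∀ a y, c y (S.ι a) = 0 := fun a y => by rw [csym, cιl]
  have zero_all : (∀ x y, c x y = 0) → False := by
    intro h
    obtain ⟨x, y, hxy⟩ := hna
    apply hxy
    have := hc x y
    rw [h, S.ι_zero] at this
    exact commutatorElement_eq_one_iff_mul_comm.mp this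
  have hne : ∃ x, ∀ a, x ≠ S.ι a := by
    by_contra h
    push Not at h
    obtain ⟨x, y, hxy⟩ := hna
    obtain ⟨a, rfl⟩ := h x
    exact hxy (S.ι_central hQ hlam a y)
  have L0 : ∀ a, ∃ z, S.w z = S.ι a := S.exists_w_eq hQ hlam hne
  have hy2 : ∃ y, S.w (S.w y) ≠ 1 := by
    by_contra h
    push Not at h
    have hC : ∀ y, ∃ a, S.w y = S.ι a := fun y => (S.w_eq_one_iff _).mp (h y)
    choose Φ hΦ using hC
    apply zero_all
    refine factor_zero hlam S.ρ (fun x y => map_mul S.ρ x y) Φ ?_ ?_ ?_ c cl cr calt cρ ?_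
    · intro x y
      apply S.ι_injective
      rw [← hΦ, S.w_mul_of hQ hlam (hΦ x) (hΦ y)]
    · intro x
      apply S.ι_injective
      rw [← hΦ, S.w_ρ, hΦ, S.ρι]
    · intro a
      obtain ⟨z, hz⟩ := L0 a
      exact ⟨z, S.ι_injective (by rw [← hΦ, hz])⟩
    · intro k y hk
      have : S.w k = 1 := by rw [hΦ, hk, S.ι_zero]
      obtain ⟨a, rfl⟩ := (S.w_eq_one_iff _).mp this
      exact cιl a y
  have htop : ∀ x, S.w (S.w (S.w x)) = 1 := by
    by_contra h
    push Not at h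
    obtain ⟨x₀, hx₀⟩ := h
    haveI hN : S.C.Normal := S.C_normal hQ hlam
    have hcmR : ∀ x y : Q ⧸ S.C, x * y = y * x := by
      intro x y
      induction x using QuotientGroup.induction_on with
      | H x =>
        induction y using QuotientGroup.induction_on with
        | H y =>
          rw [← QuotientGroup.mk_mul, ← QuotientGroup.mk_mul, QuotientGroup.eq]
          obtain ⟨a, ha⟩ := hcomm y⁻¹ x⁻¹
          exact ⟨a, by rw [← ha, commutatorElement_def]; group⟩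
    let fb : Q ⧸ S.C → Q ⧸ S.C → F := fun x y => c (Quotient.out x) (Quotient.out y)
    have c_mk : ∀ x x' y y' : Q, ((x : Q) : Q ⧸ S.C) = x' → ((y : Q) : Q ⧸ S.C) = y' → c x y = c x' y' := by
      intro x x' y y' hx hy
      obtain ⟨a, ha⟩ := QuotientGroup.eq.mp hx
      obtain ⟨b, hb⟩ := QuotientGroup.eq.mp hy
      have h3 : x' = x * S.ι a := by rw [← ha]; group
      have h4 : y' = y * S.ι b := by rw [← hb]; group
      rw [h3, h4, cl, cr, cιl, cιr]
      ring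
    have hfb : ∀ x y : Q, fb (x : Q ⧸ S.C) (y : Q ⧸ S.C) = c x y := by
      intro x y
      exact c_mk _ _ _ _ (QuotientGroup.out_eq' _) (QuotientGroup.out_eq' _)
    have hab := ab_form hcmR (S.quot hQ hlam hne) (hQ.to_quotient S.C) hlam
      (by
        refine ⟨(x₀ : Q ⧸ S.C), ?_⟩
        rw [S.quot_mk_w hQ hlam hne, S.quot_mk_w hQ hlam hne]
        intro h
        obtain ⟨a, ha⟩ := (S.mk_eq_one_iff _).mp h
        rw [ha] at hx₀
        exact hx₀ (S.w_ι a))
      fb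
      (by
        intro x y z
        induction x using QuotientGroup.induction_on with
        | H x =>
          induction y using QuotientGroup.induction_on with
          | H y =>
            induction z using QuotientGroup.induction_on with
            | H z =>
              rw [← QuotientGroup.mk_mul, hfb, hfb, hfb, cl])
      (by
        intro x y z
        induction x using QuotientGroup.induction_on with
        | H x =>
          induction y using QuotientGroup.induction_on with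
          | H y =>
            induction z using QuotientGroup.induction_on with
            | H z =>
              rw [← QuotientGroup.mk_mul, hfb, hfb, hfb, cr])
      (by
        intro x
        induction x using QuotientGroup.induction_on with
        | H x => rw [hfb, calt])
      (by
        intro x y
        induction x using QuotientGroup.induction_on with
        | H x =>
          induction y using QuotientGroup.induction_on with
          | H y =>
            rw [S.quot_mk_ρ hQ hlam hne, S.quot_mk_ρ hQ hlam hne, hfb, hfb, cρ])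
    apply zero_all
    intro x y
    rw [← hfb]
    exact hab _ _
  have L1 : ∀ a, ∃ y, S.w (S.w y) = S.ι a := by
    intro a
    exact HS.lift_iter hlam 1 S hQ (by simpa using hy2) a
  have w2m := S.w2_mul hQ hlam hcomm htop
  have hE2 : ∀ y, ∃ a, S.w (S.w y) = S.ι a := fun y => (S.w_eq_one_iff _).mp (htop y)
  have Pm : ∀ z z' u u', S.w z = S.ι u → S.w z' = S.ι u' → S.w (z * z') = S.ι (u + u') :=
    fun z z' u u' hz hz' => S.w_mul_of hQ hlam hz hz'
  have Pρ : ∀ z u, S.w z = S.ι u → S.w (S.ρ z) = S.ι (lam * u) := by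
    intro z u hz
    rw [S.w_ρ, hz, S.ρι]
  have e22 : ∀ z z' u u', S.w z = S.ι u → S.w z' = S.ι u' → c z z' = 0 := by
    obtain ⟨κ, hκ⟩ := pair_abstract hlam (fun z u => S.w z = S.ι u) (fun z u => S.w z = S.ι u) c S.ρ L0 L0 Pm Pm Pρ Pρ
      (fun z z' y _ _ _ _ _ _ => cl z z' y) (fun z y y' _ _ _ _ _ _ => cr z y y') (fun z y _ _ _ _ => cρ z y)
      (by
        intro z z' y y' u v hz hz' hy hy'
        obtain ⟨a, ha⟩ := S.eq_of_w_eq hQ hlam (hz.trans hz'.symm)
        obtain ⟨b, hb⟩ := S.eq_of_w_eq hQ hlam (hy.trans hy'.symm)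
        rw [ha, hb, cl, cιl, cr, cιr]
        ring)
    have hκ0 : κ = 0 := by
      obtain ⟨z₁, hz₁⟩ := L0 1
      have h3 := hκ z₁ z₁ 1 1 hz₁ hz₁
      rw [calt] at h3
      have h4 : κ ^ 2 = 0 := by
        linear_combination -h3
      exact pow_eq_zero_iff (two_ne_zero) |>.mp h4
    intro z z' u u' hz hz'
    have h3 := hκ z z' u u' hz hz'
    rw [hκ0] at h3
    have h4 : (c z z') ^ 2 = 0 := by rw [h3]; ring
    exact pow_eq_zero_iff (two_ne_zero) |>.mp h4
  obtain ⟨κ, hκ⟩ := pair_abstract hlam (fun z u => S.w z = S.ι u) (fun y v => S.w (S.w y) = S.ι v) c S.ρ L0 L1 Pm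
    (by
      intro z z' u u' hz hz'
      show S.w (S.w (z * z')) = _
      rw [w2m, hz, hz', S.ι_add])
    Pρ
    (by
      intro z u hz
      show S.w (S.w (S.ρ z)) = _
      rw [S.w_ρ, S.w_ρ, hz, S.ρι])
    (fun z z' y _ _ _ _ _ _ => cl z z' y) (fun z y y' _ _ _ _ _ _ => cr z y y') (fun z y _ _ _ _ => cρ z y)
    (by
      intro z z' y y' u v hz hz' hy hy'
      obtain ⟨a, ha⟩ := S.eq_of_w_eq hQ hlam (hz.trans hz'.symm)
      have hd : S.w (S.w (y' * y⁻¹)) = 1 := by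
        have h3 := w2m (y' * y⁻¹) y
        rw [inv_mul_cancel_right, hy', hy] at h3
        exact (mul_eq_right.mp h3.symm)
      obtain ⟨b, hb⟩ := (S.w_eq_one_iff _).mp hd
      have h5 : c z (y' * y⁻¹) = 0 := e22 _ _ _ _ hz hb
      have h6 : c z y' = c z y := by
        have h7 := cr z (y' * y⁻¹) y
        rw [inv_mul_cancel_right, h5, zero_add] at h7
        exact h7
      rw [ha, cl, cιl, zero_add, h6])
  have hκne : κ ≠ 0 := by
    rintro rfl
    choose Φ hΦ using hE2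
    apply zero_all
    refine factor_zero hlam S.ρ (fun x y => map_mul S.ρ x y) Φ ?_ ?_ ?_ c cl cr calt cρ ?_
    · intro x y
      apply S.ι_injective
      rw [← hΦ, w2m, hΦ, hΦ, S.ι_add]
    · intro x
      apply S.ι_injective
      rw [← hΦ, S.w_ρ, S.w_ρ, hΦ, S.ρι]
    · intro a
      obtain ⟨z, hz⟩ := L1 a
      exact ⟨z, S.ι_injective (by rw [← hΦ, hz])⟩
    · intro k y hk
      have h3 : S.w (S.w k) = 1 := by rw [hΦ, hk, S.ι_zero]
      obtain ⟨u, hu⟩ := (S.w_eq_one_iff _).mp h3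
      have h4 := hκ k y u (Φ y) hu (hΦ y)
      have h5 : (c k y) ^ 2 = 0 := by rw [h4]; ring
      exact pow_eq_zero_iff (two_ne_zero) |>.mp h5
  have hsq : ∀ y : Q, ∃ a, y * y = S.ι a := by
    intro y
    obtain ⟨v, hv⟩ := hE2 y
    have h1 : S.w (S.w (y * y)) = 1 := by rw [w2m, hv, S.ι_mul_self]
    obtain ⟨u, hu⟩ := (S.w_eq_one_iff _).mp h1
    have h3 := hκ (y * y) y u v hu hv
    have h4 : c (y * y) y = 0 := by rw [cl, calt]; ring
    rw [h4] at h3
    have h5 : u * v = 0 := by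
      have h6 : κ ^ 2 * (u * v) = 0 := by linear_combination -h3
      exact (mul_eq_zero.mp h6).resolve_left (pow_ne_zero 2 hκne)
    rcases mul_eq_zero.mp h5 with rfl | rfl
    · rw [S.ι_zero] at hu
      exact (S.w_eq_one_iff _).mp hu
    · rw [S.ι_zero] at hv
      obtain ⟨b, hb⟩ := (S.w_eq_one_iff _).mp hv
      have h6 := S.w_mul_of hQ hlam hb hb
      rw [CharTwo.add_self_eq_zero, S.ι_zero] at h6
      exact (S.w_eq_one_iff _).mp h6
  have hκ1 : κ ^ 2 = 1 := by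
    obtain ⟨y₁, hy₁⟩ := L1 1
    set e := S.w y₁ with he
    obtain ⟨b, hb⟩ := hsq y₁
    have h3 : S.α (y₁ * y₁) = y₁ * y₁ := by rw [hb, S.α_ι]
    rw [map_mul, S.α_eq y₁, ← he] at h3
    have h4 : e * y₁ * e = y₁ := by
      have h5 : y₁⁻¹ * ((y₁ * e) * (y₁ * e)) * y₁⁻¹ = y₁⁻¹ * (y₁ * y₁) * y₁⁻¹ := by rw [h3]
      calc e * y₁ * e = y₁⁻¹ * ((y₁ * e) * (y₁ * e)) := by group
        _ = y₁⁻¹ * ((y₁ * e) * (y₁ * e)) * y₁⁻¹ * y₁ := by group
        _ = y₁⁻¹ * (y₁ * y₁) * y₁⁻¹ * y₁ := by rw [h5]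
        _ = y₁ := by group
    have h6 : e⁻¹ * e⁻¹ = S.ι 1 := by
      rw [← hy₁, S.w_w]
    have h7 : ⁅e, y₁⁆ = S.ι 1 := by
      have h8 : e * y₁ = y₁ * e⁻¹ := by
        calc e * y₁ = (e * y₁ * e) * e⁻¹ := by group
          _ = y₁ * e⁻¹ := by rw [h4]
      rw [commutatorElement_def, h8, mul_assoc (y₁) (e⁻¹) (e⁻¹), h6, S.conj_ι' hQ hlam]
    have h8 := hκ e y₁ 1 1 hy₁ hy₁
    rw [c_eq _ _ _ h7] at h8
    linear_combination -h8
  refine ⟨hcomm, htop, hsq, ?_⟩
  intro z y u v t hz hy ht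
  have h3 := hκ z y u v hz hy
  rw [c_eq _ _ _ ht, hκ1] at h3
  rw [h3]
  ring

theorem caseB [hN : S.C.Normal] (hne : ∃ x, ∀ a, x ≠ S.ι a) (hG : (S.quot hQ hlam hne).Good)
    (hnc : ¬ ∀ x y : Q, ∃ a, ⁅x, y⁆ = S.ι a) (h4 : ∃ c : F, c ≠ 0 ∧ c ≠ 1) : False := by
  classical
  have h2 : (2 : F) = 0 := CharTwo.two_eq_zero
  have hQb : IsPGroup 2 (Q ⧸ S.C) := hQ.to_quotient S.C
  have mkw : ∀ x : Q, (S.quot hQ hlam hne).w (x : Q ⧸ S.C) = ((S.w x : Q) : Q ⧸ S.C) := S.quot_mk_w hQ hlam hne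
  have mkι : ∀ (x : Q) (a : F), ((x : Q) : Q ⧸ S.C) = (S.quot hQ hlam hne).ι a ↔ S.w x = S.ι a :=
    S.mk_eq_ι_iff hQ hlam hne
  have mkc : ∀ x y : Q, ((⁅x, y⁆ : Q) : Q ⧸ S.C) = ⁅(x : Q ⧸ S.C), (y : Q ⧸ S.C)⁆ := fun x y =>
    map_commutatorElement (QuotientGroup.mk' S.C) x y
  have T1 : ∀ x y : Q, ∃ a, S.w ⁅x, y⁆ = S.ι a := by
    intro x y
    obtain ⟨a, ha⟩ := hG.comm (x : Q ⧸ S.C) (y : Q ⧸ S.C)
    exact ⟨a, (mkι _ _).mp (by rw [mkc]; exact ha)⟩
  have T2 : ∀ x : Q, S.w (S.w (S.w (S.w x))) = 1 := by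
    intro x
    have h3 := hG.top (x : Q ⧸ S.C)
    rw [mkw, mkw, mkw] at h3
    obtain ⟨a, ha⟩ := (S.mk_eq_one_iff _).mp h3
    rw [ha]
    exact S.w_ι a
  have T3 : ∀ y : Q, ∃ a, S.w (y * y) = S.ι a := by
    intro y
    obtain ⟨a, ha⟩ := hG.sq (y : Q ⧸ S.C)
    exact ⟨a, (mkι _ _).mp (by rw [QuotientGroup.mk_mul]; exact ha)⟩
  have T4 : ∀ (z y : Q) (u v t : F), S.w (S.w z) = S.ι u → S.w (S.w (S.w y)) = S.ι v → S.w ⁅z, y⁆ = S.ι t →
      t ^ 2 = u * v := by
    intro z y u v t hu hv ht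
    refine hG.pair (z : Q ⧸ S.C) (y : Q ⧸ S.C) u v t ?_ ?_ ?_
    · rw [mkw]; exact (mkι _ _).mpr hu
    · rw [mkw, mkw]; exact (mkι _ _).mpr hv
    · rw [← mkc]; exact (mkι _ _).mpr ht
  have T6 : ∀ (x : Q) (u : F) (y : Q), S.w x = S.ι u → ∃ t, ⁅x, y⁆ = S.ι t := by
    intro x u y hx
    have h3 := (S.quot hQ hlam hne).ι_central hQb hlam u (y : Q ⧸ S.C)
    rw [← (mkι x u).mpr hx] at h3
    have h5 : ((⁅x, y⁆ : Q) : Q ⧸ S.C) = 1 := by
      rw [mkc]
      exact commutatorElement_eq_one_iff_mul_comm.mpr h3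
    exact (S.mk_eq_one_iff _).mp h5
  have T5 : ∃ y, S.w (S.w (S.w y)) ≠ 1 := by
    by_contra hall
    push Not at hall
    apply hnc
    intro z y
    obtain ⟨u, hu⟩ := (S.w_eq_one_iff _).mp (hall z)
    obtain ⟨t, ht⟩ := T1 z y
    have h3 := T4 z y u 0 t hu (by rw [hall y, S.ι_zero]) ht
    have h5 : t = 0 := by
      rw [mul_zero] at h3
      exact pow_eq_zero_iff (two_ne_zero) |>.mp h3
    rw [h5, S.ι_zero] at ht
    exact (S.w_eq_one_iff _).mp ht
  have L0 : ∀ a, ∃ z, S.w z = S.ι a := S.exists_w_eq hQ hlam hne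
  have L1 : ∀ a, ∃ y, S.w (S.w y) = S.ι a := by
    intro a
    refine HS.lift_iter hlam 1 S hQ ?_ a
    obtain ⟨y, hy⟩ := T5
    refine ⟨y, fun h => hy ?_⟩
    have h3 : S.w (S.w y) = 1 := h
    rw [h3, S.w_one]
  have L2 : ∀ a, ∃ y, S.w (S.w (S.w y)) = S.ι a := by
    intro a
    exact HS.lift_iter hlam 2 S hQ T5 a
  -- the commutator log
  let c : Q → Q → F := fun x y => S.log ⁅x, y⁆
  have c_eq : ∀ x y t, ⁅x, y⁆ = S.ι t → c x y = t := by
    intro x y t h
    show S.log _ = t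
    rw [h, S.log_ι]
  have hc2 : ∀ (x : Q) (u : F) (y : Q), S.w x = S.ι u → ⁅x, y⁆ = S.ι (c x y) := by
    intro x u y hx
    obtain ⟨t, ht⟩ := T6 x u y hx
    rw [c_eq _ _ _ ht, ht]
  -- C1
  have C1 : ∀ (x : Q) (u : F) (y : Q), S.w x = S.ι u → x * S.w y = S.w y * x := by
    intro x u y hx
    obtain ⟨t, ht⟩ := T6 x u y hx
    have h1 : S.α ⁅x, y⁆ = ⁅x, y⁆ := by rw [ht, S.α_ι]
    rw [map_commutatorElement, S.α_eq x, S.α_eq y, hx] at h1
    set e := S.w y with he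
    simp only [commutatorElement_def] at h1
    have h3 : x * S.ι u * (y * e) * (x * S.ι u)⁻¹ * (y * e)⁻¹ = x * (y * e) * x⁻¹ * (y * e)⁻¹ := by
      have h5 : S.ι u * (y * e) = (y * e) * S.ι u := S.ι_central hQ hlam u _
      calc x * S.ι u * (y * e) * (x * S.ι u)⁻¹ * (y * e)⁻¹
          = x * (S.ι u * (y * e)) * (S.ι u)⁻¹ * x⁻¹ * (y * e)⁻¹ := by group
        _ = x * ((y * e) * S.ι u) * (S.ι u)⁻¹ * x⁻¹ * (y * e)⁻¹ := by rw [h5]
        _ = _ := by group
    rw [h3] at h1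
    have h5 : e * x⁻¹ * e⁻¹ = x⁻¹ := by
      calc e * x⁻¹ * e⁻¹ = y⁻¹ * x⁻¹ * (x * (y * e) * x⁻¹ * (y * e)⁻¹) * y := by group
        _ = y⁻¹ * x⁻¹ * (x * y * x⁻¹ * y⁻¹) * y := by rw [h1]
        _ = x⁻¹ := by group
    have h6 : e * x * e⁻¹ = x := by
      have := congrArg (fun g => g⁻¹) h5
      simpa [mul_assoc] using this
    calc x * e = (e * x * e⁻¹) * e := by rw [h6]
      _ = e * x := by group
  have C2 : ∀ (x a : Q) (u b : F), S.w x = S.ι u → S.w a = S.ι b → x * a = a * x := by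
    intro x a u b hx ha
    obtain ⟨t, ht⟩ := L1 b
    obtain ⟨d, hd⟩ := S.eq_of_w_eq hQ hlam (ht.trans ha.symm)
    rw [hd]
    have h3 := C1 x u t hx
    have h5 := S.ι_central hQ hlam d x
    calc x * (S.ι d * S.w t) = (x * S.ι d) * S.w t := by group
      _ = (S.ι d * x) * S.w t := by rw [h5]
      _ = S.ι d * (x * S.w t) := by group
      _ = S.ι d * (S.w t * x) := by rw [h3]
      _ = _ := by group
  have C3 : ∀ (x : Q) (u : F) (z : Q), S.w x = S.ι u → S.w (S.w (S.w z)) = 1 → x * z = z * x := by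
    intro x u z hx hz
    obtain ⟨v, hv⟩ := (S.w_eq_one_iff _).mp hz
    obtain ⟨y, hy⟩ := L2 v
    set e := S.w y with he
    obtain ⟨d, hd⟩ := S.eq_of_w_eq hQ hlam (hy.trans hv.symm)
    have hwa : S.w (z * e⁻¹) = S.ι d := by
      have h3 : S.w e⁻¹ = e * (S.w e)⁻¹ * e⁻¹ := by
        show (e⁻¹)⁻¹ * S.α e⁻¹ = _
        rw [map_inv, S.α_eq e]
        group
      rw [S.w_mul, h3, hd]
      calc (e⁻¹)⁻¹ * (S.ι d * S.w e) * e⁻¹ * (e * (S.w e)⁻¹ * e⁻¹) = e * S.ι d * e⁻¹ := by group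
        _ = S.ι d := S.conj_ι' hQ hlam e d
    have h3 := C2 x (z * e⁻¹) u d hx hwa
    have h5 := C1 x u y hx
    have h6 : z = (z * e⁻¹) * e := by group
    rw [h6]
    calc x * ((z * e⁻¹) * e) = (x * (z * e⁻¹)) * e := by group
      _ = ((z * e⁻¹) * x) * e := by rw [h3]
      _ = (z * e⁻¹) * (x * e) := by group
      _ = (z * e⁻¹) * (e * x) := by rw [h5]
      _ = _ := by group
  have w3m : ∀ x y : Q, S.w (S.w (S.w (x * y))) = S.w (S.w (S.w x)) * S.w (S.w (S.w y)) := by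
    intro x y
    have h3 := (S.quot hQ hlam hne).w2_mul hQb hlam hG.comm hG.top (x : Q ⧸ S.C) (y : Q ⧸ S.C)
    rw [← QuotientGroup.mk_mul, mkw, mkw, mkw, mkw, mkw, mkw, ← QuotientGroup.mk_mul] at h3
    obtain ⟨d, hd⟩ := QuotientGroup.eq.mp h3
    have h5 : S.w (S.w x) * S.w (S.w y) = S.w (S.w (x * y)) * S.ι d := by
      rw [← hd]; group
    have h6 := congrArg S.w h5
    rw [S.w_mul_ι hQ hlam, S.w_mul] at h6
    obtain ⟨r, hr⟩ := (S.w_eq_one_iff _).mp (T2 x)
    rw [hr, S.conj_ι hQ hlam] at h6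
    rw [← h6, hr]
  have hE3 : ∀ y, ∃ a, S.w (S.w (S.w y)) = S.ι a := fun y => (S.w_eq_one_iff _).mp (T2 y)
  have hinv : ∀ y y' : Q, ∀ v, S.w (S.w (S.w y)) = S.ι v → S.w (S.w (S.w y')) = S.ι v →
      S.w (S.w (S.w (y' * y⁻¹))) = 1 := by
    intro y y' v hy hy'
    have h3 := w3m (y' * y⁻¹) y
    rw [inv_mul_cancel_right, hy, hy'] at h3
    exact mul_eq_right.mp h3.symm
  obtain ⟨μ, hμ⟩ := pair_abstract hlam (fun z u => S.w z = S.ι u) (fun y v => S.w (S.w (S.w y)) = S.ι v) c S.ρ L0 L2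
    (fun z z' u u' hz hz' => S.w_mul_of hQ hlam hz hz')
    (by
      intro z z' u u' hz hz'
      show S.w (S.w (S.w (z * z'))) = _
      rw [w3m, hz, hz', S.ι_add])
    (by
      intro z u hz
      show S.w (S.ρ z) = _
      rw [S.w_ρ, hz, S.ρι])
    (by
      intro z u hz
      show S.w (S.w (S.w (S.ρ z))) = _
      rw [S.w_ρ, S.w_ρ, S.w_ρ, hz, S.ρι])
    (by
      intro z z' y u u' v hz hz' _
      exact c_eq _ _ _ (S.comm_mul_l hQ hlam (hc2 z u y hz) (hc2 z' u' y hz')))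
    (by
      intro z y y' u v v' hz _ _
      exact c_eq _ _ _ (S.comm_mul_r hQ hlam (hc2 z u y hz) (hc2 z u y' hz)))
    (by
      intro z y u v hz _
      apply c_eq
      rw [← map_commutatorElement, hc2 z u y hz, S.ρι])
    (by
      intro z z' y y' u v hz hz' hy hy'
      obtain ⟨a, ha⟩ := S.eq_of_w_eq hQ hlam (hz.trans hz'.symm)
      have hd := hinv y y' v hy hy'
      have hcm := C3 z u _ hz hd
      set d := y' * y⁻¹ with hd'
      have h3 : y' = d * y := by rw [hd']; group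
      have h5 : ⁅z', y'⁆ = ⁅z, y⁆ := by
        rw [ha, h3]
        have h6 : S.ι a * z * (d * y) * (S.ι a * z)⁻¹ * (d * y)⁻¹ = z * (d * y) * z⁻¹ * (d * y)⁻¹ := by
          have h7 : S.ι a * (z * (d * y)) = (z * (d * y)) * S.ι a := S.ι_central hQ hlam a _
          calc S.ι a * z * (d * y) * (S.ι a * z)⁻¹ * (d * y)⁻¹
              = (S.ι a * (z * (d * y))) * z⁻¹ * (S.ι a)⁻¹ * (d * y)⁻¹ := by group
            _ = ((z * (d * y)) * S.ι a) * z⁻¹ * (S.ι a)⁻¹ * (d * y)⁻¹ := by rw [h7]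
            _ = (z * (d * y)) * (S.ι a * z⁻¹ * (S.ι a)⁻¹) * (d * y)⁻¹ := by group
            _ = (z * (d * y)) * z⁻¹ * (d * y)⁻¹ := by rw [S.conj_ι2 hQ hlam]
        have h8 : z * (d * y) * z⁻¹ * (d * y)⁻¹ = d * (z * y * z⁻¹ * y⁻¹) * d⁻¹ := by
          calc z * (d * y) * z⁻¹ * (d * y)⁻¹ = (z * d) * y * z⁻¹ * (d * y)⁻¹ := by group
            _ = (d * z) * y * z⁻¹ * (d * y)⁻¹ := by rw [hcm]
            _ = _ := by group
        simp only [commutatorElement_def]
        rw [h6, h8]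
        have h9 : z * y * z⁻¹ * y⁻¹ = S.ι (c z y) := by
          rw [← commutatorElement_def]; exact hc2 z u y hz
        rw [h9, S.conj_ι' hQ hlam]
      show S.log ⁅z, y⁆ = S.log ⁅z', y'⁆
      rw [h5])
  -- the relation coming from `[[x,y],y'] = [[x,y'],y]`
  have C4 : ∀ x y y' : Q, S.w (S.w (S.w x)) = 1 → c ⁅x, y'⁆ y = c ⁅x, y⁆ y' := by
    intro x y y' hx
    obtain ⟨t, ht⟩ := T1 x y
    obtain ⟨t', ht'⟩ := T1 x y'
    obtain ⟨t₀, ht₀⟩ := T1 y y'
    set a := ⁅x, y⁆ with ha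
    set b := ⁅x, y'⁆ with hb
    set c₀ := ⁅y, y'⁆ with hc₀
    have hxy : x * y * x⁻¹ = a * y := by rw [ha, commutatorElement_def]; group
    have hxy' : x * y' * x⁻¹ = b * y' := by rw [hb, commutatorElement_def]; group
    have hyy' : y * y' = c₀ * (y' * y) := by rw [hc₀, commutatorElement_def]; group
    have hxc₀ : x * c₀ * x⁻¹ = c₀ := by
      have := C3 c₀ t₀ x ht₀ hx
      rw [← this]; group
    have hmain : (a * y) * (b * y') = c₀ * ((b * y') * (a * y)) := by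
      rw [← hxy, ← hxy']
      calc x * y * x⁻¹ * (x * y' * x⁻¹) = x * (y * y') * x⁻¹ := by group
        _ = x * (c₀ * (y' * y)) * x⁻¹ := by rw [hyy']
        _ = (x * c₀ * x⁻¹) * ((x * y' * x⁻¹) * (x * y * x⁻¹)) := by group
        _ = _ := by rw [hxc₀]
    set p := ⁅b, y⁆ with hp
    set r := ⁅a, y'⁆ with hr
    have hpc : p = S.ι (c b y) := hc2 b t' y ht'
    have hrc : r = S.ι (c a y') := hc2 a t y' ht
    have hyb : y * b = p⁻¹ * (b * y) := by rw [hp, commutatorElement_def]; group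
    have hy'a : y' * a = r⁻¹ * (a * y') := by rw [hr, commutatorElement_def]; group
    have hab := C2 a b t t' ht ht'
    have hac := C2 a c₀ t t₀ ht ht₀
    have hbc := C2 b c₀ t' t₀ ht' ht₀
    have hpi : p⁻¹ = S.ι (c b y) := by rw [hpc, S.ι_neg]
    have hri : r⁻¹ = S.ι (c a y') := by rw [hrc, S.ι_neg]
    have hcenp : ∀ g, p⁻¹ * g = g * p⁻¹ := by
      intro g; rw [hpi]; exact S.ι_central hQ hlam _ g
    have hcenr : ∀ g, r⁻¹ * g = g * r⁻¹ := by
      intro g; rw [hri]; exact S.ι_central hQ hlam _ g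
    have hlhs : (a * y) * (b * y') = p⁻¹ * (a * b * c₀) * (y' * y) := by
      calc (a * y) * (b * y') = a * (y * b) * y' := by group
        _ = a * (p⁻¹ * (b * y)) * y' := by rw [hyb]
        _ = (a * p⁻¹) * b * (y * y') := by group
        _ = (p⁻¹ * a) * b * (y * y') := by rw [hcenp a]
        _ = (p⁻¹ * a) * b * (c₀ * (y' * y)) := by rw [hyy']
        _ = _ := by group
    have hrhs : c₀ * ((b * y') * (a * y)) = r⁻¹ * (a * b * c₀) * (y' * y) := by
      calc c₀ * ((b * y') * (a * y)) = c₀ * b * (y' * a) * y := by group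
        _ = c₀ * b * (r⁻¹ * (a * y')) * y := by rw [hy'a]
        _ = (c₀ * b * r⁻¹) * a * (y' * y) := by group
        _ = (r⁻¹ * (c₀ * b)) * a * (y' * y) := by rw [hcenr (c₀ * b)]
        _ = r⁻¹ * (c₀ * b * a) * (y' * y) := by group
        _ = r⁻¹ * (a * b * c₀) * (y' * y) := by
          have : c₀ * b * a = a * b * c₀ := by
            calc c₀ * b * a = (c₀ * b) * a := rfl
              _ = (b * c₀) * a := by rw [← hbc]
              _ = b * (c₀ * a) := by group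
              _ = b * (a * c₀) := by rw [← hac]
              _ = (b * a) * c₀ := by group
              _ = (a * b) * c₀ := by rw [← hab]
          rw [this]
    rw [hlhs, hrhs] at hmain
    have h5 : p⁻¹ = r⁻¹ := by
      have h6 := mul_right_cancel hmain
      exact mul_right_cancel h6
    have h6 : S.ι (c b y) = S.ι (c a y') := by rw [← hpi, ← hri, h5]
    exact S.ι_injective h6
  -- choose elements
  obtain ⟨c₁, hc₁0, hc₁1⟩ := h4
  obtain ⟨x, hx⟩ := L1 1
  have hx3 : S.w (S.w (S.w x)) = 1 := by rw [hx]; exact S.w_ι 1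
  obtain ⟨y, hy⟩ := L2 1
  obtain ⟨y', hy'⟩ := L2 c₁
  obtain ⟨t, ht⟩ := T1 x y
  obtain ⟨t', ht'⟩ := T1 x y'
  have ht1 : t = 1 := by
    have h3 := T4 x y 1 1 t hx hy ht
    have h5 : (t + 1) ^ 2 = 0 := by linear_combination h3 + (t + 1) * h2
    have h6 := pow_eq_zero_iff (two_ne_zero) |>.mp h5
    exact CharTwo.add_eq_zero.mp h6
  have ht'c : t' ^ 2 = c₁ := by
    have h3 := T4 x y' 1 c₁ t' hx hy' ht'
    rw [h3, one_mul]
  have hμ0 : μ = 0 := by
    by_contra hμ0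
    have h3 := hμ ⁅x, y⁆ y' t c₁ ht hy'
    have h5 := hμ ⁅x, y'⁆ y t' 1 ht' hy
    have h6 := C4 x y y' hx3
    rw [h6, h3, ht1] at h5
    have h7 : c₁ = t' := by
      have h8 : μ ^ 2 * (c₁ - t') = 0 := by linear_combination h5
      have h9 := (mul_eq_zero.mp h8).resolve_left (pow_ne_zero 2 hμ0)
      exact sub_eq_zero.mp h9
    rw [← h7] at ht'c
    have h8 : c₁ * (c₁ - 1) = 0 := by linear_combination ht'c
    rcases mul_eq_zero.mp h8 with h9 | h9
    · exact hc₁0 h9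
    · exact hc₁1 (sub_eq_zero.mp h9)
  have hcen : ∀ (z : Q) (u : F) (g : Q), S.w z = S.ι u → z * g = g * z := by
    intro z u g hz
    obtain ⟨v, hv⟩ := hE3 g
    have h3 := hμ z g u v hz hv
    rw [hμ0] at h3
    have h5 : (c z g) ^ 2 = 0 := by rw [h3]; ring
    have h6 := pow_eq_zero_iff (two_ne_zero) |>.mp h5
    have h7 := hc2 z u g hz
    rw [h6, S.ι_zero] at h7
    exact commutatorElement_eq_one_iff_mul_comm.mp h7
  set τ := ⁅x, y⁆ with hτ
  have hτc : ∀ g, τ * g = g * τ := fun g => hcen τ t g ht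
  obtain ⟨r, hr⟩ := T3 x
  have hxx : ∀ g, (x * x) * g = g * (x * x) := fun g => hcen _ r g hr
  have hττ : τ * τ = 1 := by
    have h3 : ⁅x * x, y⁆ = 1 := commutatorElement_eq_one_iff_mul_comm.mpr (hxx y)
    have h5 : ⁅x * x, y⁆ = x * τ * x⁻¹ * τ := by
      rw [hτ]
      simp only [commutatorElement_def]
      group
    rw [h5, ← hτc x, mul_inv_cancel_right] at h3
    exact h3
  obtain ⟨s, hs⟩ := L1 1
  have hwτ : S.w τ = S.ι 1 := by rw [ht, ht1]
  obtain ⟨d, hd⟩ := S.eq_of_w_eq hQ hlam (hs.trans hwτ.symm)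
  set e := S.w s with he
  have he2 : e * e = S.ι 1 := by
    have h3 : e⁻¹ * e⁻¹ = S.ι 1 := by rw [← hs, S.w_w]
    have h5 : (e * e)⁻¹ = S.ι 1 := by rw [mul_inv_rev]; exact h3
    rw [← inv_inj, h5, S.ι_neg]
  have h5 : τ * τ = S.ι 1 := by
    rw [hd]
    calc S.ι d * e * (S.ι d * e) = S.ι d * (e * S.ι d) * e := by group
      _ = S.ι d * (S.ι d * e) * e := by rw [S.ι_central hQ hlam d e]
      _ = (S.ι d * S.ι d) * (e * e) := by group
      _ = S.ι 1 := by rw [S.ι_mul_self, one_mul, he2]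
  rw [hττ] at h5
  exact one_ne_zero (S.ι_inj 1 h5.symm)

end HS

/-- **Structure theorem**: a non-abelian `HS`-group is `Good`. -/
theorem HS.struct (hlam : ∀ a : F, a ≠ 0 → ∃ k : ℕ, a = lam ^ k) (h4 : ∃ c : F, c ≠ 0 ∧ c ≠ 1) :
    ∀ (m : ℕ) {Q : Type u} [Group Q] [Finite Q] (S : HS lam Q) (hQ : IsPGroup 2 Q), Nat.card Q = m →
      (∃ x y : Q, x * y ≠ y * x) → S.Good := by
  intro m
  induction m using Nat.strong_induction_on with
  | _ m ih =>
    intro Q _ _ S hQ hm hna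
    by_cases hcomm : ∀ x y : Q, ∃ a, ⁅x, y⁆ = S.ι a
    · exact S.caseA hQ hlam hcomm hna
    · exfalso
      have hne : ∃ x, ∀ a, x ≠ S.ι a := by
        by_contra h
        push Not at h
        apply hcomm
        intro x y
        obtain ⟨a, rfl⟩ := h x
        refine ⟨0, ?_⟩
        rw [S.ι_zero, commutatorElement_eq_one_iff_mul_comm]
        exact S.ι_central hQ hlam a y
      haveI hN : S.C.Normal := S.C_normal hQ hlam
      have hna' : ∃ x y : Q ⧸ S.C, x * y ≠ y * x := by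
        push Not at hcomm
        obtain ⟨x, y, hxy⟩ := hcomm
        refine ⟨(x : Q ⧸ S.C), (y : Q ⧸ S.C), ?_⟩
        intro h
        have h3 : ((⁅x, y⁆ : Q) : Q ⧸ S.C) = 1 := by
          have : ((⁅x, y⁆ : Q) : Q ⧸ S.C) = ⁅(x : Q ⧸ S.C), (y : Q ⧸ S.C)⁆ :=
            map_commutatorElement (QuotientGroup.mk' S.C) x y
          rw [this]
          exact commutatorElement_eq_one_iff_mul_comm.mpr h
        obtain ⟨a, ha⟩ := (S.mk_eq_one_iff _).mp h3
        exact hxy a ha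
      have hcard : Nat.card (Q ⧸ S.C) < m := by
        have h3 := Subgroup.card_eq_card_quotient_mul_card_subgroup S.C
        have h5 : 1 < Nat.card S.C := by
          haveI : Nontrivial S.C := ⟨⟨⟨S.ι 1, 1, rfl⟩, 1, fun h => one_ne_zero (S.ι_inj 1 (congrArg Subtype.val h))⟩⟩
          exact Finite.one_lt_card
        have h6 : 0 < Nat.card (Q ⧸ S.C) := Nat.card_pos
        rw [← hm, h3]
        exact lt_mul_of_one_lt_right h6 h5
      have hG := ih _ hcard (S.quot hQ hlam hne) (hQ.to_quotient S.C) rfl hna'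
      exact S.caseB hQ hlam hne hG hcomm h4

end Cfsg.Agent.Lib.LayerHS
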