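import Mathlib
import Cfsg.Agent.Lib.LayerStruct

/-!
# Coordinates on a `Good` group: `Q/C ≅ F × F` with the squaring map `t = u + ω v + √(uv)`.
-/

set_option autoImplicit false
set_option linter.style.haveILetI false
set_option linter.unusedSectionVars false
set_option linter.unusedVariables false

namespace Cfsg.Agent.Lib.LayerHS

open scoped commutatorElement

universe u v

variable {F : Type v} [Field F] [Finite F] [CharP F 2] {lam : F}

namespace HS

variable {Q : Type u} [Group Q] (S : HS lam Q)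

variable [Finite Q] (hQ : IsPGroup 2 Q) (hlam : ∀ a : F, a ≠ 0 → ∃ k : ℕ, a = lam ^ k)

include hQ hlam

theorem Good.coords (hG : S.Good) (hna : ∃ x y : Q, x * y ≠ y * x) (N : ℕ) (hN : Odd N)
    (hρN : ∀ x, S.ρ^[N] x = x) (hlamN : lam ^ N = 1) :
    ∃ (π φ : Q → F) (ω : F), (∀ x y, π (x * y) = π x + π y) ∧ (∀ x y, φ (x * y) = φ x + φ y) ∧
      (∀ u v, ∃ x, π x = u ∧ φ x = v) ∧ (∀ x, (π x = 0 ∧ φ x = 0) ↔ ∃ a, x = S.ι a) ∧
      (∀ x t, x * x = S.ι t → (t + π x + ω * φ x) ^ 2 = π x * φ x) := by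
  classical
  have h2 : (2 : F) = 0 := CharTwo.two_eq_zero
  have hcomm := hG.comm
  have htop := hG.top
  let c : Q → Q → F := fun x y => S.log ⁅x, y⁆
  have hc : ∀ x y, ⁅x, y⁆ = S.ι (c x y) := by
    intro x y
    obtain ⟨a, ha⟩ := hcomm x y
    show _ = S.ι (S.log _)
    rw [ha, S.log_ι]
  have c_eq : ∀ x y t, ⁅x, y⁆ = S.ι t → c x y = t := by
    intro x y t h
    show S.log _ = t
    rw [h, S.log_ι]
  have cl : ∀ x y z, c (x * y) z = c x z + c y z := fun x y z =>
    c_eq _ _ _ (S.comm_mul_l hQ hlam (hc x z) (hc y z))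
  -- lifts
  have hy2 : ∃ y, S.w (S.w y) ≠ 1 := by
    by_contra h
    push Not at h
    obtain ⟨x, y, hxy⟩ := hna
    apply hxy
    obtain ⟨u, hu⟩ := (S.w_eq_one_iff _).mp (h x)
    have h3 := hG.pair x y u 0 (c x y) hu (by rw [h y, S.ι_zero]) (hc x y)
    rw [mul_zero] at h3
    have h5 := pow_eq_zero_iff (two_ne_zero) |>.mp h3
    have h6 := hc x y
    rw [h5, S.ι_zero] at h6
    exact commutatorElement_eq_one_iff_mul_comm.mp h6
  have hne : ∃ x, ∀ a, x ≠ S.ι a := by
    obtain ⟨y, hy⟩ := hy2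
    refine ⟨y, ?_⟩
    rintro a rfl
    rw [S.w_ι, S.w_one] at hy
    exact hy rfl
  have L0 : ∀ a, ∃ z, S.w z = S.ι a := S.exists_w_eq hQ hlam hne
  have L1 : ∀ a, ∃ y, S.w (S.w y) = S.ι a := by
    intro a
    exact HS.lift_iter hlam 1 S hQ (by simpa using hy2) a
  have w2m := S.w2_mul hQ hlam hcomm htop
  have hE2 : ∀ y, ∃ a, S.w (S.w y) = S.ι a := fun y => (S.w_eq_one_iff _).mp (htop y)
  choose φ hφ using hE2
  have φ_mul : ∀ x y, φ (x * y) = φ x + φ y := by
    intro x y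
    apply S.ι_injective
    rw [← hφ, w2m, hφ, hφ, S.ι_add]
  have φ_ρ : ∀ x, φ (S.ρ x) = lam * φ x := by
    intro x
    apply S.ι_injective
    rw [← hφ, S.w_ρ, S.w_ρ, hφ, S.ρι]
  have φ_E2 : ∀ z u, S.w z = S.ι u → φ z = 0 := by
    intro z u hz
    apply S.ι_injective
    rw [← hφ, hz, S.w_ι, S.ι_zero]
  have φ_surj : ∀ a, ∃ y, φ y = a := by
    intro a
    obtain ⟨y, hy⟩ := L1 a
    exact ⟨y, S.ι_injective (by rw [← hφ, hy])⟩
  obtain ⟨y₀, hy₀⟩ := L1 1
  have sq_add : ∀ a b : F, (a + b) ^ 2 = a ^ 2 + b ^ 2 := by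
    intro a b
    linear_combination (a * b) * h2
  let π₀ : Q → F := fun x => (c x y₀) ^ 2
  have π₀_mul : ∀ x y, π₀ (x * y) = π₀ x + π₀ y := by
    intro x y
    show (c (x * y) y₀) ^ 2 = _
    rw [cl, sq_add]
  have π₀_E2 : ∀ z u, S.w z = S.ι u → π₀ z = u := by
    intro z u hz
    have h3 := hG.pair z y₀ u 1 (c z y₀) hz hy₀ (hc z y₀)
    rw [mul_one] at h3
    exact h3
  have iterρ_mul : ∀ (i : ℕ) (x y : Q), S.ρ^[i] (x * y) = S.ρ^[i] x * S.ρ^[i] y := by
    intro i x y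
    induction i with
    | zero => rfl
    | succ i ih =>
      rw [Function.iterate_succ_apply', Function.iterate_succ_apply', Function.iterate_succ_apply', ih, map_mul]
  have iterρ_w : ∀ (i : ℕ) (x : Q), S.w (S.ρ^[i] x) = S.ρ^[i] (S.w x) := by
    intro i x
    induction i with
    | zero => rfl
    | succ i ih =>
      rw [Function.iterate_succ_apply', Function.iterate_succ_apply', S.w_ρ, ih]
  have iterρ_ι : ∀ (i : ℕ) (a : F), S.ρ^[i] (S.ι a) = S.ι (lam ^ i * a) := by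
    intro i a
    induction i with
    | zero => simp
    | succ i ih =>
      rw [Function.iterate_succ_apply', ih, S.ρι, pow_succ']
      congr 1
      ring
  have hN0 : N ≠ 0 := by
    rintro rfl
    exact absurd hN (by decide)
  have hlam0 : lam ≠ 0 := by
    rintro h
    rw [h, zero_pow hN0] at hlamN
    exact zero_ne_one hlamN
  let π : Q → F := fun x => ∑ i ∈ Finset.range N, (lam⁻¹) ^ i * π₀ (S.ρ^[i] x)
  have π_mul : ∀ x y, π (x * y) = π x + π y := by
    intro x y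
    show ∑ i ∈ Finset.range N, (lam⁻¹) ^ i * π₀ (S.ρ^[i] (x * y)) = ∑ i ∈ Finset.range N, (lam⁻¹) ^ i * π₀ (S.ρ^[i] x) +
      ∑ i ∈ Finset.range N, (lam⁻¹) ^ i * π₀ (S.ρ^[i] y)
    rw [← Finset.sum_add_distrib]
    refine Finset.sum_congr rfl fun i _ => ?_
    rw [iterρ_mul, π₀_mul]
    ring
  have π_ρ : ∀ x, π (S.ρ x) = lam * π x := by
    intro x
    let g : ℕ → F := fun i => (lam⁻¹) ^ i * π₀ (S.ρ^[i] x)
    have h3 : ∑ i ∈ Finset.range N, g (i + 1) = ∑ i ∈ Finset.range N, g i := by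
      have h5 := Finset.sum_range_succ' g N
      have h6 := Finset.sum_range_succ g N
      have h7 : g N = g 0 := by
        show (lam⁻¹) ^ N * π₀ (S.ρ^[N] x) = (lam⁻¹) ^ 0 * π₀ (S.ρ^[0] x)
        rw [hρN, inv_pow, hlamN, inv_one, pow_zero]
        rfl
      rw [h6, h7] at h5
      exact (add_right_cancel h5).symm
    show ∑ i ∈ Finset.range N, (lam⁻¹) ^ i * π₀ (S.ρ^[i] (S.ρ x)) = lam * ∑ i ∈ Finset.range N, g i
    rw [← h3, Finset.mul_sum]
    refine Finset.sum_congr rfl fun i _ => ?_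
    show _ = lam * ((lam⁻¹) ^ (i + 1) * π₀ (S.ρ^[i + 1] x))
    rw [Function.iterate_succ_apply, pow_succ]
    field_simp
  have hNF : ((N : ℕ) : F) = 1 := by
    obtain ⟨k, rfl⟩ := hN
    push_cast
    rw [h2]
    ring
  have π_E2 : ∀ z u, S.w z = S.ι u → π z = u := by
    intro z u hz
    show ∑ i ∈ Finset.range N, (lam⁻¹) ^ i * π₀ (S.ρ^[i] z) = u
    have h3 : ∀ i ∈ Finset.range N, (lam⁻¹) ^ i * π₀ (S.ρ^[i] z) = u := by
      intro i _
      rw [π₀_E2 _ (lam ^ i * u) (by rw [iterρ_w, hz, iterρ_ι]), inv_pow, ← mul_assoc,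
        inv_mul_cancel₀ (pow_ne_zero i hlam0), one_mul]
    rw [Finset.sum_congr rfl h3, Finset.sum_const, Finset.card_range, nsmul_eq_mul, hNF, one_mul]
  have π1 : π 1 = 0 := by
    have h3 := π_mul 1 1
    rw [mul_one] at h3
    exact left_eq_add.mp h3
  have φ1 : φ 1 = 0 := by
    have h3 := φ_mul 1 1
    rw [mul_one] at h3
    exact left_eq_add.mp h3
  have π_inv : ∀ x, π x⁻¹ = π x := by
    intro x
    have h3 := π_mul x⁻¹ x
    rw [inv_mul_cancel, π1] at h3
    linear_combination -h3 - (π x) * h2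
  have φ_inv : ∀ x, φ x⁻¹ = φ x := by
    intro x
    have h3 := φ_mul x⁻¹ x
    rw [inv_mul_cancel, φ1] at h3
    linear_combination -h3 - (φ x) * h2
  -- lifts to `(u, v)`
  have hpv : ∀ u v, ∃ x, π x = u ∧ φ x = v := by
    intro u v
    obtain ⟨y, hy⟩ := φ_surj v
    obtain ⟨z, hz⟩ := L0 (u + π y)
    refine ⟨z * y, ?_, ?_⟩
    · rw [π_mul, π_E2 z _ hz]
      linear_combination (π y) * h2
    · rw [φ_mul, φ_E2 z _ hz, zero_add, hy]
  -- squares on `E₂`
  have sqz : ∀ z u t, S.w z = S.ι u → z * z = S.ι t → t = u := by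
    intro z u t hz ht
    obtain ⟨s, hs⟩ := L1 u
    obtain ⟨d, hd⟩ := S.eq_of_w_eq hQ hlam (hs.trans hz.symm)
    set e := S.w s with he
    have he2 : e * e = S.ι u := by
      have h3 : e⁻¹ * e⁻¹ = S.ι u := by rw [← hs, S.w_w]
      have h5 : (e * e)⁻¹ = S.ι u := by rw [mul_inv_rev]; exact h3
      rw [← inv_inj, h5, S.ι_neg]
    have h5 : z * z = S.ι u := by
      rw [hd]
      calc S.ι d * e * (S.ι d * e) = S.ι d * (e * S.ι d) * e := by group
        _ = S.ι d * (S.ι d * e) * e := by rw [S.ι_central hQ hlam d e]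
        _ = (S.ι d * S.ι d) * (e * e) := by group
        _ = S.ι u := by rw [S.ι_mul_self, one_mul, he2]
    exact S.ι_injective (ht.symm.trans h5)
  -- squares on `ker π`
  have hK : ∀ v, ∃ y, π y = 0 ∧ φ y = v := fun v => hpv 0 v
  choose s hs1 hs2 using hK
  have hsq := hG.sq
  choose Qf hQf using hsq
  let A : F → F := fun v => Qf (s v)
  have ker_eq : ∀ x, π x = 0 → φ x = 0 → ∃ a, x = S.ι a := by
    intro x hπ hφ0
    have h3 : S.w (S.w x) = 1 := by rw [hφ, hφ0, S.ι_zero]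
    obtain ⟨u, hu⟩ := (S.w_eq_one_iff _).mp h3
    have h5 := π_E2 x u hu
    rw [hπ] at h5
    rw [← h5, S.ι_zero] at hu
    exact (S.w_eq_one_iff _).mp hu
  have sqK : ∀ y v t, π y = 0 → φ y = v → y * y = S.ι t → t = A v := by
    intro y v t hy1 hy2 ht
    have hk : π (y * (s v)⁻¹) = 0 := by
      rw [π_mul, π_inv, hy1, hs1, add_zero]
    have hk2 : φ (y * (s v)⁻¹) = 0 := by
      rw [φ_mul, φ_inv, hy2, hs2]
      linear_combination v * h2
    obtain ⟨a, ha⟩ := ker_eq _ hk hk2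
    have h3 : y = S.ι a * s v := by
      rw [← ha]; group
    have h5 : y * y = s v * s v := by
      rw [h3]
      calc S.ι a * s v * (S.ι a * s v) = S.ι a * (s v * S.ι a) * s v := by group
        _ = S.ι a * (S.ι a * s v) * s v := by rw [S.ι_central hQ hlam a (s v)]
        _ = (S.ι a * S.ι a) * (s v * s v) := by group
        _ = _ := by rw [S.ι_mul_self, one_mul]
    have h6 : S.ι t = S.ι (A v) := by
      rw [← ht, h5]
      exact hQf (s v)
    exact S.ι_injective h6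
  have A_lam : ∀ v, A (lam * v) = lam * A v := by
    intro v
    symm
    apply sqK (S.ρ (s v)) (lam * v) (lam * A v)
    · rw [π_ρ, hs1, mul_zero]
    · rw [φ_ρ, hs2]
    · rw [← S.ρι, ← map_mul]
      exact congrArg S.ρ (hQf (s v))
  have A_0 : A 0 = 0 := by
    symm
    apply sqK 1 0 0 π1 φ1
    rw [mul_one, S.ι_zero]
  let ω := A 1
  have A_all : ∀ v, A v = ω * v := by
    intro v
    by_cases hv : v = 0
    · subst hv
      rw [A_0, mul_zero]
    · obtain ⟨k, rfl⟩ := hlam v hv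
      induction k with
      | zero => simp [ω]
      | succ k ih =>
        rw [pow_succ', A_lam, ih (pow_ne_zero k hlam0)]
        ring
  refine ⟨π, φ, ω, π_mul, φ_mul, hpv, ?_, ?_⟩
  · intro x
    constructor
    · rintro ⟨h3, h5⟩
      exact ker_eq x h3 h5
    · rintro ⟨a, rfl⟩
      refine ⟨π_E2 _ 0 (by rw [S.w_ι, S.ι_zero]), ?_⟩
      exact φ_E2 _ 0 (by rw [S.w_ι, S.ι_zero])
  · intro x t ht
    set u := π x with hu
    set v := φ x with hv
    obtain ⟨z, hz⟩ := L0 u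
    set y := z⁻¹ * x with hy
    have hxy : x = z * y := by rw [hy]; group
    have hπy : π y = 0 := by
      rw [hy, π_mul, π_inv, π_E2 z _ hz, ← hu]
      linear_combination u * h2
    have hφy : φ y = v := by
      rw [hy, φ_mul, φ_inv, φ_E2 z _ hz, zero_add]
    have hyv : S.w (S.w y) = S.ι v := by rw [hφ, hφy]
    set r := c z y with hr
    have h3 := hG.pair z y u v r hz hyv (hc z y)
    obtain ⟨t₁, ht₁⟩ := hG.sq z
    obtain ⟨t₂, ht₂⟩ := hG.sq y
    have h5 := sqz z u t₁ hz ht₁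
    have h6 := sqK y v t₂ hπy hφy ht₂
    rw [A_all] at h6
    have hcomz : z * y = S.ι r * (y * z) := by
      have h7 : ⁅z, y⁆ = S.ι r := hc z y
      rw [← h7, commutatorElement_def]
      group
    have hcomz' : y * z = S.ι r * (z * y) := by
      rw [hcomz, ← mul_assoc, S.ι_mul_self, one_mul]
    have h7 : x * x = S.ι r * ((z * z) * (y * y)) := by
      rw [hxy]
      calc z * y * (z * y) = z * (y * z) * y := by group
        _ = z * (S.ι r * (z * y)) * y := by rw [hcomz']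
        _ = (z * S.ι r) * (z * y) * y := by group
        _ = (S.ι r * z) * (z * y) * y := by rw [S.ι_central hQ hlam r z]
        _ = _ := by group
    rw [ht, ht₁, ht₂, ← S.ι_add, ← S.ι_add] at h7
    have h8 := S.ι_injective h7
    have h9 : t + u + ω * v = r := by
      rw [h8, h5, h6]
      linear_combination (u + ω * v) * h2
    rw [h9]
    exact h3

end HS

end Cfsg.Agent.Lib.LayerHS
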