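import Mathlib.GroupTheory.FreeGroup.NielsenSchreier
import Mathlib.GroupTheory.FreeGroup.Reduce
import Mathlib.GroupTheory.Perm.Basic
import Mathlib.GroupTheory.Index
import Mathlib.Data.Finite.Perm
import Mathlib.Tactic
import Cfsg.Prelude.Def_FusionSystem

set_option autoImplicit false
universe u

namespace Cfsg.Agent.LearyStancu

open FreeGroup

/-! ### Part 0: the abstract tree lemma -/

section Tree

variable {Γ : Type*} [Group Γ] (B : Subgroup Γ) (ℓ : Γ → ℕ)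

/-- A finite subgroup of a group with a "tree length" is conjugate into the vertex group. -/
theorem exists_conj_into
    (h0 : ∀ g, ℓ g = 0 ↔ g ∈ B)
    (hinv : ∀ g, ℓ g⁻¹ = ℓ g)
    (htri : ∀ g g', ℓ (g * g') ≤ ℓ g + ℓ g')
    (hdec : ∀ c n, ℓ c = n + 1 → ∃ c' b, c = c' * b ∧ ℓ c' = n ∧ ℓ b = 1)
    (hsq : ∀ c, ℓ c = 1 → ℓ (c * c) = 2)
    (hconv : ∀ z a b, ℓ a = 1 → ℓ b = 1 → a⁻¹ * b ∉ B →
      2 * ℓ z ^ 2 + 2 ≤ ℓ (z * a) ^ 2 + ℓ (z * b) ^ 2)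
    (H : Subgroup Γ) [Finite H] : ∃ g, ∀ h ∈ H, g * h * g⁻¹ ∈ B := by
  classical
  let _ : Fintype H := Fintype.ofFinite H
  -- right invariance under `B`
  have hright : ∀ x t, t ∈ B → ℓ (x * t) = ℓ x := by
    intro x t ht
    have h1 := htri x t
    have h2 := htri (x * t) t⁻¹
    rw [(h0 t).2 ht] at h1
    rw [(h0 t⁻¹).2 (B.inv_mem ht), mul_inv_cancel_right] at h2
    omega
  have hleft : ∀ x t, t ∈ B → ℓ (t * x) = ℓ x := by
    intro x t ht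
    have := hright x⁻¹ t⁻¹ (B.inv_mem ht)
    rw [← mul_inv_rev, hinv, hinv] at this
    exact this
  -- left decomposition
  have hdecL : ∀ c n, ℓ c = n + 1 → ∃ b c', c = b * c' ∧ ℓ c' = n ∧ ℓ b = 1 := by
    intro c n hc
    have : ℓ c⁻¹ = n + 1 := by rw [hinv, hc]
    obtain ⟨c', b, h1, h2, h3⟩ := hdec _ _ this
    refine ⟨b⁻¹, c'⁻¹, ?_, by rw [hinv, h2], by rw [hinv, h3]⟩
    rw [← mul_inv_rev, ← h1, inv_inv]
  -- the function
  let Φ : Γ → ℕ := fun g => ∑ h : H, ℓ ((h : Γ)⁻¹ * g) ^ 2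
  have hΦleft : ∀ h' ∈ H, ∀ g, Φ (h' * g) = Φ g := by
    intro h' hh' g
    show ∑ h : H, ℓ ((h : Γ)⁻¹ * (h' * g)) ^ 2 = ∑ h : H, ℓ ((h : Γ)⁻¹ * g) ^ 2
    refine Fintype.sum_equiv (Equiv.mulLeft (⟨h', hh'⟩ : H)⁻¹) _ _ ?_
    intro h
    congr 2
    simp [mul_assoc]
  have hΦright : ∀ g t, t ∈ B → Φ (g * t) = Φ g := by
    intro g t ht
    show ∑ h : H, ℓ ((h : Γ)⁻¹ * (g * t)) ^ 2 = ∑ h : H, ℓ ((h : Γ)⁻¹ * g) ^ 2
    refine Finset.sum_congr rfl fun h _ => ?_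
    rw [← mul_assoc, hright _ _ ht]
  have hcardpos : 0 < Fintype.card H := Fintype.card_pos
  have hΦconv : ∀ g a b, ℓ a = 1 → ℓ b = 1 → a⁻¹ * b ∉ B →
      2 * Φ g + 2 * Fintype.card H ≤ Φ (g * a) + Φ (g * b) := by
    intro g a b ha hb hab
    have : ∀ h : H, 2 * ℓ ((h : Γ)⁻¹ * g) ^ 2 + 2 ≤
        ℓ ((h : Γ)⁻¹ * (g * a)) ^ 2 + ℓ ((h : Γ)⁻¹ * (g * b)) ^ 2 := by
      intro h
      rw [← mul_assoc, ← mul_assoc]
      exact hconv _ a b ha hb hab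
    have hs := Finset.sum_le_sum (s := Finset.univ) fun h _ => this h
    rw [Finset.sum_add_distrib, Finset.sum_add_distrib, ← Finset.mul_sum] at hs
    simpa [Φ, mul_comm] using hs
  -- chain lemma
  have hchain : ∀ n g a c, ℓ c = n → ℓ a = 1 → ℓ (a * c) = n + 1 → Φ g ≤ Φ (g * a) →
      Φ (g * a) ≤ Φ (g * a * c) ∧ (1 ≤ n → Φ (g * a) < Φ (g * a * c)) := by
    intro n
    induction n with
    | zero =>
      intro g a c hc _ _ _
      rw [hΦright _ _ ((h0 c).1 hc)]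
      exact ⟨le_rfl, fun h => absurd h (by norm_num)⟩
    | succ n ih =>
      intro g a c hc ha hac hg
      obtain ⟨b, c', rfl, hc', hb⟩ := hdecL c n hc
      have hnot : (a⁻¹)⁻¹ * b ∉ B := by
        intro hin
        rw [inv_inv] at hin
        have h3 := hright (a * b * c') 1 (B.one_mem)
        have h4 := hleft c' _ hin
        rw [mul_assoc] at h4
        omega
      have hconv' := hΦconv (g * a) a⁻¹ b (by rw [hinv, ha]) hb hnot
      rw [mul_inv_cancel_right] at hconv'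
      have hlt : Φ (g * a) < Φ (g * a * b) := by omega
      have := ih (g * a) b c' hc' hb hc hlt.le
      have h5 : g * a * (b * c') = g * a * b * c' := by group
      rw [h5]
      exact ⟨(hlt.trans_le this.1).le, fun _ => hlt.trans_le this.1⟩
  -- minimizer
  obtain ⟨g₀, hg₀⟩ : ∃ g₀, ∀ g, Φ g₀ ≤ Φ g := by
    have hne : (Set.range Φ).Nonempty := ⟨_, ⟨1, rfl⟩⟩
    obtain ⟨g₀, hg₀⟩ := Nat.sInf_mem hne
    exact ⟨g₀, fun g => by rw [hg₀]; exact Nat.sInf_le ⟨g, rfl⟩⟩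
  refine ⟨g₀⁻¹, fun h' hh' => ?_⟩
  rw [inv_inv]
  by_contra hc
  have key : ∀ h'' ∈ H, 2 ≤ ℓ (g₀⁻¹ * h'' * g₀) → False := by
    intro h'' hh'' hge
    obtain ⟨n, hn⟩ : ∃ n, ℓ (g₀⁻¹ * h'' * g₀) = n + 1 + 1 := ⟨ℓ (g₀⁻¹ * h'' * g₀) - 2, by omega⟩
    obtain ⟨a, c', hac, hc', ha⟩ := hdecL _ _ hn
    have hch := hchain (n + 1) g₀ a c' hc' ha (by rw [← hac, hn]) (hg₀ _)
    have h7 : g₀ * a * c' = h'' * g₀ := by
      rw [mul_assoc, ← hac]; group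
    rw [h7, hΦleft h'' hh''] at hch
    have h8 := hch.2 (by omega)
    have h9 := hg₀ (g₀ * a)
    omega
  have hpos : ℓ (g₀⁻¹ * h' * g₀) ≠ 0 := fun h => hc ((h0 _).1 h)
  by_cases h2 : 2 ≤ ℓ (g₀⁻¹ * h' * g₀)
  · exact key h' hh' h2
  · have h1 : ℓ (g₀⁻¹ * h' * g₀) = 1 := by omega
    have hs := hsq _ h1
    have h3 : (g₀⁻¹ * h' * g₀) * (g₀⁻¹ * h' * g₀) = g₀⁻¹ * (h' * h') * g₀ := by group
    rw [h3] at hs
    exact key (h' * h') (H.mul_mem hh' hh') (by omega)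

end Tree

/-! ### Part 1: free group lemma -/

section FreeLemmas

variable {α : Type*}

theorem norm_single_mul [DecidableEq α] (l : α × Bool) (x : FreeGroup α) :
    norm (mk [l] * x) = norm x + 1 ∨
      (norm (mk [l] * x) + 1 = norm x ∧ ∃ tl, toWord x = (l.1, !l.2) :: tl) := by
  have hx : mk (toWord x) = x := mk_toWord
  set L := toWord x with hL
  have hred : IsReduced L := isReduced_toWord
  have h1 : mk [l] * x = mk (l :: L) := by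
    rw [← hx, mul_mk]; rfl
  have h2 : norm (mk [l] * x) = (reduce (l :: L)).length := by
    rw [h1]; rfl
  have h3 : norm x = L.length := rfl
  rw [h2, h3, reduce.cons, hred.reduce_eq]
  cases L with
  | nil => left; simp
  | cons hd tl =>
    by_cases hc : l.1 = hd.1 ∧ l.2 = !hd.2
    · right
      simp only [hc, and_self, if_true, List.length_cons, true_and]
      refine ⟨tl, ?_⟩
      have : hd = (l.1, !l.2) := by
        ext
        · exact hc.1.symm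
        · rw [hc.2]; simp
      rw [this]; simp
    · left
      simp [hc]

end FreeLemmas


/-! ### Part 2: the permutation model -/

/-- Partial automorphism data on a group `S`, with intertwining permutations. -/
structure HData (S : Type u) [Group S] (M : Type u) where
  D : M → Subgroup S
  φ : ∀ m, D m →* S
  σ : M → Equiv.Perm S
  hσ : ∀ m (u : S) (x : D m), σ m (u * x) = σ m u * φ m x

/-- The letters. -/
abbrev Ltr (S M : Type u) := M × Set S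

/-- The permuted set. -/
abbrev XX (S M : Type u) := S × FreeGroup (Ltr S M)

section Good

variable {S : Type u} {M : Type u}

/-- Commuting with the left action of the free group. -/
def IsGood (g : Equiv.Perm (XX S M)) : Prop :=
  ∀ (u : S) (w : FreeGroup (Ltr S M)), g (u, w) = ((g (u, 1)).1, w * (g (u, 1)).2)

/-- The action on `S`. -/
def pt (g : Equiv.Perm (XX S M)) (u : S) : S := (g (u, 1)).1

/-- The free part. -/
def fc (g : Equiv.Perm (XX S M)) (u : S) : FreeGroup (Ltr S M) := (g (u, 1)).2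

theorem IsGood.apply {g : Equiv.Perm (XX S M)} (hg : IsGood g) (u : S) (w) :
    g (u, w) = (pt g u, w * fc g u) := hg u w

theorem isGood_one : IsGood (1 : Equiv.Perm (XX S M)) := by
  intro u w; simp

theorem pt_one (u : S) : pt (1 : Equiv.Perm (XX S M)) u = u := rfl

theorem fc_one (u : S) : fc (1 : Equiv.Perm (XX S M)) u = 1 := rfl

theorem apply_pt_fc (g : Equiv.Perm (XX S M)) (u : S) : g (u, 1) = (pt g u, fc g u) := rfl

theorem pt_mul {g g' : Equiv.Perm (XX S M)} (hg : IsGood g) (u : S) :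
    pt (g * g') u = pt g (pt g' u) := by
  show (g (g' (u, 1))).1 = _
  rw [apply_pt_fc g', hg.apply]

theorem fc_mul {g g' : Equiv.Perm (XX S M)} (hg : IsGood g) (u : S) :
    fc (g * g') u = fc g' u * fc g (pt g' u) := by
  show (g (g' (u, 1))).2 = _
  rw [apply_pt_fc g', hg.apply]

theorem IsGood.mul {g g' : Equiv.Perm (XX S M)} (hg : IsGood g) (hg' : IsGood g') :
    IsGood (g * g') := by
  intro u w
  show g (g' (u, w)) = ((g (g' (u, 1))).1, w * (g (g' (u, 1))).2)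
  rw [hg'.apply, hg'.apply, hg.apply, hg.apply]
  simp [mul_assoc]

theorem IsGood.inv {g : Equiv.Perm (XX S M)} (hg : IsGood g) : IsGood g⁻¹ := by
  intro v w
  have h1 : g (((g⁻¹ (v, 1)).1), (g⁻¹ (v, 1)).2) = (v, 1) := by
    rw [Prod.mk.eta]; simp
  rw [hg.apply] at h1
  have h2 : g ((g⁻¹ (v, 1)).1, w * (g⁻¹ (v, 1)).2) = (v, w) := by
    rw [hg.apply]
    have h3 := congrArg Prod.fst h1
    have h4 := congrArg Prod.snd h1
    simp only at h3 h4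
    rw [h3, mul_assoc, h4, mul_one]
  rw [← h2]; simp

theorem pt_inv_pt {g : Equiv.Perm (XX S M)} (hg : IsGood g) (u : S) : pt g⁻¹ (pt g u) = u := by
  rw [← pt_mul hg.inv]; simp [pt_one]

theorem pt_pt_inv {g : Equiv.Perm (XX S M)} (hg : IsGood g) (u : S) : pt g (pt g⁻¹ u) = u := by
  rw [← pt_mul hg]; simp [pt_one]

theorem fc_inv {g : Equiv.Perm (XX S M)} (hg : IsGood g) (v : S) :
    fc g⁻¹ v = (fc g (pt g⁻¹ v))⁻¹ := by
  have := fc_mul (g := g) (g' := g⁻¹) hg v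
  rw [mul_inv_cancel, fc_one] at this
  exact eq_inv_of_mul_eq_one_left this.symm

theorem good_ext {g g' : Equiv.Perm (XX S M)} (hg : IsGood g) (hg' : IsGood g')
    (h1 : ∀ u, pt g u = pt g' u) (h2 : ∀ u, fc g u = fc g' u) : g = g' := by
  ext1 ⟨u, w⟩
  rw [hg.apply, hg'.apply, h1, h2]

end Good

namespace HData

variable {S : Type u} [Group S] {M : Type u} (𝔇 : HData S M)

/-- The coset `u D_m` as a set. -/
def cos (m : M) (u : S) : Set S := {v | u⁻¹ * v ∈ 𝔇.D m}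

theorem cos_eq_iff (m : M) (u v : S) : 𝔇.cos m u = 𝔇.cos m v ↔ u⁻¹ * v ∈ 𝔇.D m := by
  constructor
  · intro h
    have : v ∈ 𝔇.cos m v := by simp [cos, (𝔇.D m).one_mem]
    rw [← h] at this
    exact this
  · intro h
    ext w
    show u⁻¹ * w ∈ 𝔇.D m ↔ v⁻¹ * w ∈ 𝔇.D m
    constructor
    · intro hw
      have : v⁻¹ * w = (u⁻¹ * v)⁻¹ * (u⁻¹ * w) := by group
      rw [this]
      exact (𝔇.D m).mul_mem ((𝔇.D m).inv_mem h) hw
    · intro hw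
      have : u⁻¹ * w = (u⁻¹ * v) * (v⁻¹ * w) := by group
      rw [this]
      exact (𝔇.D m).mul_mem h hw

/-- The vertex group acting on the right. -/
def iota (_ : HData S M) : S →* Equiv.Perm (XX S M) where
  toFun s :=
    { toFun := fun p => (p.1 * s⁻¹, p.2)
      invFun := fun p => (p.1 * s, p.2)
      left_inv := fun p => by simp
      right_inv := fun p => by simp }
  map_one' := by ext p <;> simp
  map_mul' s t := by
    ext p <;> simp [mul_assoc]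

/-- The stable letters. -/
def tau (m : M) : Equiv.Perm (XX S M) where
  toFun p := (𝔇.σ m p.1, p.2 * of (m, 𝔇.cos m p.1))
  invFun p := ((𝔇.σ m)⁻¹ p.1, p.2 * (of (m, 𝔇.cos m ((𝔇.σ m)⁻¹ p.1)))⁻¹)
  left_inv p := by simp
  right_inv p := by simp

@[simp] theorem iota_apply (s : S) (p : XX S M) : 𝔇.iota s p = (p.1 * s⁻¹, p.2) := rfl

@[simp] theorem tau_apply (m : M) (p : XX S M) :
    𝔇.tau m p = (𝔇.σ m p.1, p.2 * of (m, 𝔇.cos m p.1)) := rfl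

@[simp] theorem tau_inv_apply (m : M) (p : XX S M) :
    (𝔇.tau m)⁻¹ p = ((𝔇.σ m)⁻¹ p.1, p.2 * (of (m, 𝔇.cos m ((𝔇.σ m)⁻¹ p.1)))⁻¹) := rfl

theorem isGood_iota (s : S) : IsGood (𝔇.iota s) := by
  intro u w; simp

theorem isGood_tau (m : M) : IsGood (𝔇.tau m) := by
  intro u w; simp

theorem pt_iota (s u : S) : pt (𝔇.iota s) u = u * s⁻¹ := rfl
theorem fc_iota (s u : S) : fc (𝔇.iota s) u = 1 := rfl
theorem pt_tau (m : M) (u : S) : pt (𝔇.tau m) u = 𝔇.σ m u := rfl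
theorem fc_tau (m : M) (u : S) : fc (𝔇.tau m) u = of (m, 𝔇.cos m u) := by
  simp [fc]
theorem pt_tau_inv (m : M) (u : S) : pt (𝔇.tau m)⁻¹ u = (𝔇.σ m)⁻¹ u := rfl
theorem fc_tau_inv (m : M) (u : S) : fc (𝔇.tau m)⁻¹ u = (of (m, 𝔇.cos m ((𝔇.σ m)⁻¹ u)))⁻¹ := by
  simp [fc]

theorem cos_mul_mem (m : M) (u : S) (x : S) (hx : x ∈ 𝔇.D m) : 𝔇.cos m (u * x) = 𝔇.cos m u := by
  rw [cos_eq_iff]
  simpa using (𝔇.D m).inv_mem hx

theorem σ_mul_inv (m : M) (u : S) (x : 𝔇.D m) :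
    𝔇.σ m (u * (x : S)⁻¹) = 𝔇.σ m u * (𝔇.φ m x)⁻¹ := by
  have := 𝔇.hσ m u x⁻¹
  simpa using this

theorem tau_mul_iota (m : M) (x : 𝔇.D m) :
    𝔇.tau m * 𝔇.iota (x : S) = 𝔇.iota (𝔇.φ m x) * 𝔇.tau m := by
  ext1 ⟨u, w⟩
  simp only [Equiv.Perm.mul_apply, tau_apply, iota_apply]
  rw [σ_mul_inv, cos_mul_mem 𝔇 m u _ ((𝔇.D m).inv_mem x.2)]

theorem tau_iota_tau_inv (m : M) (x : 𝔇.D m) :
    𝔇.tau m * 𝔇.iota (x : S) * (𝔇.tau m)⁻¹ = 𝔇.iota (𝔇.φ m x) := by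
  rw [tau_mul_iota]; group

theorem tau_inv_iota_tau (m : M) (x : 𝔇.D m) :
    (𝔇.tau m)⁻¹ * 𝔇.iota (𝔇.φ m x) * 𝔇.tau m = 𝔇.iota (x : S) := by
  rw [← tau_iota_tau_inv]; group

/-! Words -/

/-- A signed stable letter. -/
def T (e : M × Bool) : Equiv.Perm (XX S M) := cond e.2 (𝔇.tau e.1) (𝔇.tau e.1)⁻¹

/-- Next point. -/
def nx (e : M × Bool) (v : S) : S := cond e.2 (𝔇.σ e.1 v) ((𝔇.σ e.1)⁻¹ v)

/-- The letter read. -/
def lt (e : M × Bool) (v : S) : Ltr S M × Bool :=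
  cond e.2 ((e.1, 𝔇.cos e.1 v), true) ((e.1, 𝔇.cos e.1 ((𝔇.σ e.1)⁻¹ v)), false)

theorem isGood_T (e : M × Bool) : IsGood (𝔇.T e) := by
  obtain ⟨m, b⟩ := e
  cases b
  · exact (𝔇.isGood_tau m).inv
  · exact 𝔇.isGood_tau m

theorem pt_T (e : M × Bool) (v : S) : pt (𝔇.T e) v = 𝔇.nx e v := by
  obtain ⟨m, b⟩ := e
  cases b <;> rfl

theorem fc_T (e : M × Bool) (v : S) : fc (𝔇.T e) v = FreeGroup.mk [𝔇.lt e v] := by
  obtain ⟨m, b⟩ := e
  cases b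
  · show fc (𝔇.tau m)⁻¹ v = _
    rw [fc_tau_inv]; rfl
  · show fc (𝔇.tau m) v = _
    rw [fc_tau]; rfl

/-- Evaluation of a word (the head is applied first). -/
def ev (s₀ : S) : List ((M × Bool) × S) → Equiv.Perm (XX S M)
  | [] => 𝔇.iota s₀
  | p :: L => ev s₀ L * 𝔇.T p.1 * 𝔇.iota p.2

/-- The free word read. -/
def wd : S → List ((M × Bool) × S) → List (Ltr S M × Bool)
  | _, [] => []
  | u, p :: L => 𝔇.lt p.1 (u * p.2⁻¹) :: wd (𝔇.nx p.1 (u * p.2⁻¹)) L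

theorem isGood_ev (s₀ : S) (L : List ((M × Bool) × S)) : IsGood (𝔇.ev s₀ L) := by
  induction L with
  | nil => exact 𝔇.isGood_iota s₀
  | cons p L ih => exact (ih.mul (𝔇.isGood_T _)).mul (𝔇.isGood_iota _)

theorem fc_ev (s₀ : S) (L : List ((M × Bool) × S)) (u : S) :
    fc (𝔇.ev s₀ L) u = FreeGroup.mk (𝔇.wd u L) := by
  induction L generalizing u with
  | nil => rfl
  | cons p L ih =>
    show fc (𝔇.ev s₀ L * 𝔇.T p.1 * 𝔇.iota p.2) u = FreeGroup.mk (𝔇.lt p.1 (u * p.2⁻¹) :: 𝔇.wd (𝔇.nx p.1 (u * p.2⁻¹)) L)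
    rw [fc_mul ((𝔇.isGood_ev s₀ L).mul (𝔇.isGood_T _)), fc_iota, one_mul, pt_iota,
      fc_mul (𝔇.isGood_ev s₀ L), fc_T, pt_T, ih, mul_mk]
    rfl

/-- The pinch condition. -/
def Pinch (e' : M × Bool) (s' : S) (e : M × Bool) : Prop :=
  e'.1 = e.1 ∧ e'.2 = !e.2 ∧ (e.2 = true → s' ∈ (𝔇.φ e.1).range) ∧ (e.2 = false → s' ∈ 𝔇.D e.1)

/-- Reduced words. -/
def Rd (L : List ((M × Bool) × S)) : Prop := L.IsChain fun p q => ¬ 𝔇.Pinch q.1 q.2 p.1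

theorem lt_no_cancel {e e' : M × Bool} {s' : S} (v : S) (h : ¬ 𝔇.Pinch e' s' e)
    (h1 : (𝔇.lt e v).1 = (𝔇.lt e' (𝔇.nx e v * s'⁻¹)).1) :
    (𝔇.lt e v).2 = (𝔇.lt e' (𝔇.nx e v * s'⁻¹)).2 := by
  obtain ⟨m, b⟩ := e
  obtain ⟨m', b'⟩ := e'
  cases b <;> cases b' <;> try rfl
  · -- e = (m, false), e' = (m', true)
    exfalso
    simp only [lt, nx, cond_true, cond_false, Prod.mk.injEq] at h1
    obtain ⟨rfl, h2⟩ := h1
    rw [cos_eq_iff] at h2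
    refine h ⟨rfl, rfl, fun h => absurd h (by simp), fun _ => ?_⟩
    simpa using (𝔇.D m).inv_mem h2
  · -- e = (m, true), e' = (m', false)
    exfalso
    simp only [lt, nx, cond_true, cond_false, Prod.mk.injEq] at h1
    obtain ⟨rfl, h2⟩ := h1
    rw [cos_eq_iff] at h2
    refine h ⟨rfl, rfl, fun _ => ?_, fun h => absurd h (by simp)⟩
    set y : 𝔇.D m := ⟨_, h2⟩ with hy
    have h3 := 𝔇.hσ m v y
    have h4 : v * (y : S) = (𝔇.σ m)⁻¹ (𝔇.σ m v * s'⁻¹) := by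
      simp [hy]
    rw [h4] at h3
    have h5 : 𝔇.σ m ((𝔇.σ m)⁻¹ (𝔇.σ m v * s'⁻¹)) = 𝔇.σ m v * s'⁻¹ := by simp
    rw [h5] at h3
    have h6 : s'⁻¹ = 𝔇.φ m y := mul_left_cancel h3
    refine ⟨y⁻¹, ?_⟩
    rw [_root_.map_inv, ← h6, inv_inv]

theorem isReduced_wd (u : S) (L : List ((M × Bool) × S)) (h : 𝔇.Rd L) :
    FreeGroup.IsReduced (𝔇.wd u L) := by
  induction L generalizing u with
  | nil => exact List.isChain_nil
  | cons p L ih =>
    cases L with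
    | nil => exact List.isChain_singleton _
    | cons q L =>
      have h' : (¬ 𝔇.Pinch q.1 q.2 p.1) ∧ 𝔇.Rd (q :: L) := List.isChain_cons_cons.1 h
      have := ih (𝔇.nx p.1 (u * p.2⁻¹)) h'.2
      show List.IsChain _ (𝔇.lt p.1 (u * p.2⁻¹) :: 𝔇.lt q.1 (𝔇.nx p.1 (u * p.2⁻¹) * q.2⁻¹) :: _)
      rw [List.isChain_cons_cons]
      exact ⟨𝔇.lt_no_cancel _ h'.1, this⟩

theorem wd_length (u : S) (L : List ((M × Bool) × S)) : (𝔇.wd u L).length = L.length := by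
  induction L generalizing u with
  | nil => rfl
  | cons p L ih =>
    show (𝔇.wd _ L).length + 1 = L.length + 1
    rw [ih]

open scoped Classical in
theorem toWord_fc_ev (s₀ : S) (L : List ((M × Bool) × S)) (h : 𝔇.Rd L) (u : S) :
    toWord (fc (𝔇.ev s₀ L) u) = 𝔇.wd u L := by
  rw [fc_ev, toWord_mk, (𝔇.isReduced_wd u L h).reduce_eq]

open scoped Classical in
theorem norm_fc_ev (s₀ : S) (L : List ((M × Bool) × S)) (h : 𝔇.Rd L) (u : S) :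
    FreeGroup.norm (fc (𝔇.ev s₀ L) u) = L.length := by
  show (toWord _).length = _
  rw [𝔇.toWord_fc_ev s₀ L h, wd_length]

/-! Normal forms -/

theorem ev_mul_iota (s₀ t : S) (L : List ((M × Bool) × S)) (h : 𝔇.Rd L) :
    ∃ s₁ L', 𝔇.ev s₀ L * 𝔇.iota t = 𝔇.ev s₁ L' ∧ 𝔇.Rd L' := by
  cases L with
  | nil => exact ⟨s₀ * t, [], (_root_.map_mul 𝔇.iota s₀ t).symm, List.isChain_nil⟩
  | cons p L =>
    refine ⟨s₀, (p.1, p.2 * t) :: L, ?_, ?_⟩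
    · show 𝔇.ev s₀ L * 𝔇.T p.1 * 𝔇.iota p.2 * 𝔇.iota t = 𝔇.ev s₀ L * 𝔇.T p.1 * 𝔇.iota (p.2 * t)
      rw [_root_.map_mul, mul_assoc]
    · cases L with
      | nil => exact List.isChain_singleton _
      | cons q L => exact List.isChain_cons_cons.2 (List.isChain_cons_cons.1 h)

theorem pinch_eq {e' e : M × Bool} {s' : S} (h : 𝔇.Pinch e' s' e) :
    ∃ t, 𝔇.T e' * 𝔇.iota s' * 𝔇.T e = 𝔇.iota t := by
  obtain ⟨m, b⟩ := e
  obtain ⟨m', b'⟩ := e'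
  obtain ⟨h1, h2, h3, h4⟩ := h
  simp only at h1 h2 h3 h4
  subst h1
  cases b
  · obtain rfl : b' = true := by simpa using h2
    exact ⟨𝔇.φ m' ⟨s', h4 rfl⟩, 𝔇.tau_iota_tau_inv m' ⟨s', h4 rfl⟩⟩
  · obtain rfl : b' = false := by simpa using h2
    obtain ⟨x, rfl⟩ := h3 rfl
    exact ⟨x, 𝔇.tau_inv_iota_tau m' x⟩

theorem ev_mul_T (s₀ : S) (e : M × Bool) (L : List ((M × Bool) × S)) (h : 𝔇.Rd L) :
    ∃ s₁ L', 𝔇.ev s₀ L * 𝔇.T e = 𝔇.ev s₁ L' ∧ 𝔇.Rd L' := by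
  cases L with
  | nil =>
    refine ⟨s₀, [(e, 1)], ?_, List.isChain_singleton _⟩
    show 𝔇.iota s₀ * 𝔇.T e = 𝔇.iota s₀ * 𝔇.T e * 𝔇.iota 1
    simp
  | cons p L =>
    by_cases hp : 𝔇.Pinch p.1 p.2 e
    · obtain ⟨t, ht⟩ := 𝔇.pinch_eq hp
      have hL : 𝔇.Rd L := List.isChain_of_isChain_cons h
      obtain ⟨s₁, L', h1, h2⟩ := 𝔇.ev_mul_iota s₀ t L hL
      refine ⟨s₁, L', ?_, h2⟩
      rw [← h1, ← ht]
      show 𝔇.ev s₀ L * 𝔇.T p.1 * 𝔇.iota p.2 * 𝔇.T e = _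
      simp only [mul_assoc]
    · refine ⟨s₀, (e, 1) :: p :: L, ?_, List.isChain_cons_cons.2 ⟨hp, h⟩⟩
      show _ = 𝔇.ev s₀ (p :: L) * 𝔇.T e * 𝔇.iota 1
      simp

/-- The group. -/
def GG : Subgroup (Equiv.Perm (XX S M)) :=
  Subgroup.closure (Set.range 𝔇.iota ∪ Set.range 𝔇.tau)

theorem iota_mem_GG (s : S) : 𝔇.iota s ∈ 𝔇.GG := Subgroup.subset_closure (Or.inl ⟨s, rfl⟩)

theorem tau_mem_GG (m : M) : 𝔇.tau m ∈ 𝔇.GG := Subgroup.subset_closure (Or.inr ⟨m, rfl⟩)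

theorem T_mem_GG (e : M × Bool) : 𝔇.T e ∈ 𝔇.GG := by
  obtain ⟨m, b⟩ := e
  cases b
  · exact 𝔇.GG.inv_mem (𝔇.tau_mem_GG m)
  · exact 𝔇.tau_mem_GG m

theorem ev_mem_GG (s₀ : S) (L : List ((M × Bool) × S)) : 𝔇.ev s₀ L ∈ 𝔇.GG := by
  induction L with
  | nil => exact 𝔇.iota_mem_GG s₀
  | cons p L ih => exact 𝔇.GG.mul_mem (𝔇.GG.mul_mem ih (𝔇.T_mem_GG _)) (𝔇.iota_mem_GG _)

theorem exists_normal_form {g : Equiv.Perm (XX S M)} (hg : g ∈ 𝔇.GG) :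
    ∃ s₀ L, g = 𝔇.ev s₀ L ∧ 𝔇.Rd L := by
  unfold GG at hg
  induction hg using Subgroup.closure_induction_right with
  | one => exact ⟨1, [], (_root_.map_one 𝔇.iota).symm, List.isChain_nil⟩
  | mul_right x _ y hy ih =>
    obtain ⟨s₀, L, rfl, hL⟩ := ih
    rcases hy with ⟨s, rfl⟩ | ⟨m, rfl⟩
    · exact 𝔇.ev_mul_iota s₀ s L hL
    · exact 𝔇.ev_mul_T s₀ (m, true) L hL
  | mul_inv_cancel x _ y hy ih =>
    obtain ⟨s₀, L, rfl, hL⟩ := ih
    rcases hy with ⟨s, rfl⟩ | ⟨m, rfl⟩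
    · rw [← _root_.map_inv]
      exact 𝔇.ev_mul_iota s₀ s⁻¹ L hL
    · exact 𝔇.ev_mul_T s₀ (m, false) L hL

theorem isGood_of_mem {g : Equiv.Perm (XX S M)} (hg : g ∈ 𝔇.GG) : IsGood g := by
  obtain ⟨s₀, L, rfl, -⟩ := 𝔇.exists_normal_form hg
  exact 𝔇.isGood_ev s₀ L


/-! ### Part 3: the length function -/

open scoped Classical

/-- The length. -/
noncomputable def len (_ : HData S M) (g : Equiv.Perm (XX S M)) : ℕ := FreeGroup.norm (fc g 1)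

theorem norm_fc_uniform {g : Equiv.Perm (XX S M)} (hg : g ∈ 𝔇.GG) (u : S) :
    FreeGroup.norm (fc g u) = 𝔇.len g := by
  obtain ⟨s₀, L, rfl, hL⟩ := 𝔇.exists_normal_form hg
  rw [len, norm_fc_ev _ _ _ hL, norm_fc_ev _ _ _ hL]

theorem len_ev {s₀ : S} {L : List ((M × Bool) × S)} (hL : 𝔇.Rd L) : 𝔇.len (𝔇.ev s₀ L) = L.length :=
  𝔇.norm_fc_ev s₀ L hL 1

theorem len_eq_zero_iff {g : Equiv.Perm (XX S M)} (hg : g ∈ 𝔇.GG) :
    𝔇.len g = 0 ↔ g ∈ Set.range 𝔇.iota := by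
  constructor
  · intro h
    obtain ⟨s₀, L, rfl, hL⟩ := 𝔇.exists_normal_form hg
    rw [len_ev _ hL, List.length_eq_zero_iff] at h
    subst h
    exact ⟨s₀, rfl⟩
  · rintro ⟨s, rfl⟩
    rw [len, fc_iota, FreeGroup.norm_one]

theorem len_inv {g : Equiv.Perm (XX S M)} (hg : g ∈ 𝔇.GG) : 𝔇.len g⁻¹ = 𝔇.len g := by
  rw [len, fc_inv (𝔇.isGood_of_mem hg), FreeGroup.norm_inv_eq, norm_fc_uniform _ hg]

theorem len_mul_le {g g' : Equiv.Perm (XX S M)} (hg : g ∈ 𝔇.GG) (hg' : g' ∈ 𝔇.GG) :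
    𝔇.len (g * g') ≤ 𝔇.len g + 𝔇.len g' := by
  rw [len, fc_mul (𝔇.isGood_of_mem hg)]
  refine (FreeGroup.norm_mul_le _ _).trans ?_
  rw [norm_fc_uniform _ hg, norm_fc_uniform _ hg', add_comm]

theorem len_dec {c : Equiv.Perm (XX S M)} (hc : c ∈ 𝔇.GG) {n : ℕ} (h : 𝔇.len c = n + 1) :
    ∃ c' b, c' ∈ 𝔇.GG ∧ b ∈ 𝔇.GG ∧ c = c' * b ∧ 𝔇.len c' = n ∧ 𝔇.len b = 1 := by
  obtain ⟨s₀, L, rfl, hL⟩ := 𝔇.exists_normal_form hc
  rw [len_ev _ hL] at h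
  cases L with
  | nil => simp at h
  | cons p L =>
    have hL' : 𝔇.Rd L := List.isChain_of_isChain_cons hL
    refine ⟨𝔇.ev s₀ L, 𝔇.ev 1 [p], 𝔇.ev_mem_GG _ _, 𝔇.ev_mem_GG _ _, ?_, ?_, ?_⟩
    · show 𝔇.ev s₀ L * 𝔇.T p.1 * 𝔇.iota p.2 = 𝔇.ev s₀ L * (𝔇.iota 1 * 𝔇.T p.1 * 𝔇.iota p.2)
      simp [mul_assoc]
    · rw [len_ev _ hL']
      simpa using h
    · rw [len_ev _ (List.isChain_singleton _)]
      rfl

theorem len_sq {c : Equiv.Perm (XX S M)} (hc : c ∈ 𝔇.GG) (h : 𝔇.len c = 1) :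
    𝔇.len (c * c) = 2 := by
  obtain ⟨s₀, L, rfl, hL⟩ := 𝔇.exists_normal_form hc
  rw [len_ev _ hL] at h
  obtain ⟨p, rfl⟩ := List.length_eq_one_iff.1 h
  have h1 : 𝔇.ev s₀ [p] * 𝔇.ev s₀ [p] = 𝔇.ev s₀ [p, (p.1, p.2 * s₀)] := by
    show (𝔇.iota s₀ * 𝔇.T p.1 * 𝔇.iota p.2) * (𝔇.iota s₀ * 𝔇.T p.1 * 𝔇.iota p.2) =
      (𝔇.iota s₀ * 𝔇.T p.1 * 𝔇.iota (p.2 * s₀)) * 𝔇.T p.1 * 𝔇.iota p.2
    rw [_root_.map_mul]
    simp only [mul_assoc]
  have h2 : 𝔇.Rd [p, (p.1, p.2 * s₀)] := by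
    refine List.isChain_cons_cons.2 ⟨?_, List.isChain_singleton _⟩
    rintro ⟨-, h3, -⟩
    simp only at h3
    cases hb : p.1.2 <;> simp [hb] at h3
  rw [h1, len_ev _ h2]
  rfl

theorem exists_single {g : Equiv.Perm (XX S M)} (hg : g ∈ 𝔇.GG) (h : 𝔇.len g = 1) (u : S) :
    ∃ l, fc g u = FreeGroup.mk [l] := by
  have h1 : (toWord (fc g u)).length = 1 := by
    rw [← h, ← norm_fc_uniform _ hg u]; rfl
  obtain ⟨l, hl⟩ := List.length_eq_one_iff.1 h1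
  exact ⟨l, by rw [← hl, mk_toWord]⟩

theorem len_conv {z a b : Equiv.Perm (XX S M)} (hz : z ∈ 𝔇.GG) (ha : a ∈ 𝔇.GG) (hb : b ∈ 𝔇.GG)
    (hla : 𝔇.len a = 1) (hlb : 𝔇.len b = 1) (hab : a⁻¹ * b ∉ Set.range 𝔇.iota) :
    2 * 𝔇.len z ^ 2 + 2 ≤ 𝔇.len (z * a) ^ 2 + 𝔇.len (z * b) ^ 2 := by
  have gz := 𝔇.isGood_of_mem hz
  have ga := 𝔇.isGood_of_mem ha
  have gb := 𝔇.isGood_of_mem hb
  obtain ⟨v, hv⟩ : ∃ v, fc a (pt a⁻¹ v) ≠ fc b (pt b⁻¹ v) := by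
    by_contra hcon
    push Not at hcon
    apply hab
    have hmem : a⁻¹ * b ∈ 𝔇.GG := 𝔇.GG.mul_mem (𝔇.GG.inv_mem ha) hb
    rw [← len_eq_zero_iff _ hmem, len, fc_mul ga.inv, fc_inv ga, hcon, pt_inv_pt gb]
    simp
  have h1 : 𝔇.len (z * a) = FreeGroup.norm (fc a (pt a⁻¹ v) * fc z v) := by
    rw [← norm_fc_uniform _ (𝔇.GG.mul_mem hz ha) (pt a⁻¹ v), fc_mul gz, pt_pt_inv ga]
  have h2 : 𝔇.len (z * b) = FreeGroup.norm (fc b (pt b⁻¹ v) * fc z v) := by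
    rw [← norm_fc_uniform _ (𝔇.GG.mul_mem hz hb) (pt b⁻¹ v), fc_mul gz, pt_pt_inv gb]
  obtain ⟨l, hl⟩ := 𝔇.exists_single ha hla (pt a⁻¹ v)
  obtain ⟨l', hl'⟩ := 𝔇.exists_single hb hlb (pt b⁻¹ v)
  rw [hl, hl'] at hv
  rw [h1, h2, hl, hl', ← norm_fc_uniform _ hz v]
  rcases norm_single_mul l (fc z v) with h3 | ⟨h3, tl, h4⟩ <;>
    rcases norm_single_mul l' (fc z v) with h5 | ⟨h5, tl', h6⟩
  · rw [h3, h5]; nlinarith
  · rw [h3, ← h5]; nlinarith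
  · rw [h5, ← h3]; nlinarith
  · exfalso
    rw [h4] at h6
    have h7 := (List.cons.inj h6).1
    have h8 : l = l' := by
      obtain ⟨h71, h72⟩ := Prod.mk.inj h7
      exact Prod.ext h71 (by simpa using h72)
    exact hv (by rw [h8])


/-! ### Part 4: the group -/

/-- The vertex group inside `GG`. -/
def iotaG : S →* 𝔇.GG := 𝔇.iota.codRestrict 𝔇.GG 𝔇.iota_mem_GG

theorem iota_injective : Function.Injective 𝔇.iota := by
  intro s t h
  have h1 : pt (𝔇.iota s) 1 = pt (𝔇.iota t) 1 := by rw [h]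
  rw [pt_iota, pt_iota] at h1
  simpa using h1

theorem iotaG_injective : Function.Injective 𝔇.iotaG := by
  intro s t h
  exact 𝔇.iota_injective (congrArg Subtype.val h)

theorem mem_range_iotaG {g : 𝔇.GG} : g ∈ 𝔇.iotaG.range ↔ (g : Equiv.Perm (XX S M)) ∈ Set.range 𝔇.iota := by
  constructor
  · rintro ⟨s, rfl⟩; exact ⟨s, rfl⟩
  · rintro ⟨s, hs⟩; exact ⟨s, Subtype.ext hs⟩

/-- Every finite subgroup is conjugate into the vertex group. -/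
theorem finite_conj (H : Subgroup 𝔇.GG) [Finite H] :
    ∃ g, ∀ h ∈ H, g * h * g⁻¹ ∈ 𝔇.iotaG.range := by
  refine exists_conj_into 𝔇.iotaG.range (fun g => 𝔇.len g.1) ?_ ?_ ?_ ?_ ?_ ?_ H
  · intro g
    rw [mem_range_iotaG]
    exact 𝔇.len_eq_zero_iff g.2
  · intro g
    exact 𝔇.len_inv g.2
  · intro g g'
    exact 𝔇.len_mul_le g.2 g'.2
  · intro c n hc
    obtain ⟨c', b, h1, h2, h3, h4, h5⟩ := 𝔇.len_dec c.2 hc
    exact ⟨⟨c', h1⟩, ⟨b, h2⟩, Subtype.ext h3, h4, h5⟩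
  · intro c hc
    exact 𝔇.len_sq c.2 hc
  · intro z a b ha hb hab
    refine 𝔇.len_conv z.2 a.2 b.2 ha hb ?_
    intro h
    exact hab ((mem_range_iotaG 𝔇).2 h)

/-- The action on `S`. -/
def rho : 𝔇.GG →* Equiv.Perm S where
  toFun g :=
    { toFun := pt g.1
      invFun := pt g.1⁻¹
      left_inv := pt_inv_pt (𝔇.isGood_of_mem g.2)
      right_inv := pt_pt_inv (𝔇.isGood_of_mem g.2) }
  map_one' := rfl
  map_mul' g g' := by
    ext u
    exact pt_mul (𝔇.isGood_of_mem g.2) u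

theorem rho_apply (g : 𝔇.GG) (u : S) : 𝔇.rho g u = pt g.1 u := rfl

/-- The homomorphism from the kernel to the free group. -/
def psi : 𝔇.rho.ker →* FreeGroup (Ltr S M) where
  toFun n := (fc n.1.1 1)⁻¹
  map_one' := by
    show (fc (1 : Equiv.Perm (XX S M)) 1)⁻¹ = 1
    rw [fc_one, inv_one]
  map_mul' n n' := by
    show (fc (n.1.1 * n'.1.1) 1)⁻¹ = _
    have h : pt n'.1.1 (1 : S) = 1 := by
      have := DFunLike.congr_fun (MonoidHom.mem_ker.1 n'.2) (1 : S)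
      exact this
    rw [fc_mul (𝔇.isGood_of_mem n.1.2), h, mul_inv_rev]

theorem psi_injective : Function.Injective 𝔇.psi := by
  rw [injective_iff_map_eq_one]
  intro n hn
  have h1 : fc n.1.1 1 = 1 := inv_eq_one.1 hn
  have h2 : 𝔇.len n.1.1 = 0 := by
    rw [len, h1, FreeGroup.norm_one]
  obtain ⟨s, hs⟩ := (𝔇.len_eq_zero_iff n.1.2).1 h2
  have h3 : pt n.1.1 (1 : S) = 1 := DFunLike.congr_fun (MonoidHom.mem_ker.1 n.2) (1 : S)
  rw [← hs, pt_iota] at h3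
  have h4 : s = 1 := by simpa using h3
  apply Subtype.ext
  apply Subtype.ext
  rw [← hs, h4, _root_.map_one]
  rfl

theorem ker_isFree : IsFreeGroup 𝔇.rho.ker :=
  IsFreeGroup.ofMulEquiv (MonoidHom.ofInjective 𝔇.psi_injective).symm

theorem ker_index_dvd [Finite S] : 𝔇.rho.ker.index ∣ (Nat.card S).factorial := by
  rw [Subgroup.index_ker, ← Nat.card_perm]
  exact Subgroup.card_subgroup_dvd_card _

/-! Conjugation analysis -/

theorem wd_eq_of_conj {s₀ : S} {L : List ((M × Bool) × S)} (hL : 𝔇.Rd L) {y z : S}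
    (h : 𝔇.ev s₀ L * 𝔇.iota y = 𝔇.iota z * 𝔇.ev s₀ L) (u : S) :
    𝔇.wd (u * y⁻¹) L = 𝔇.wd u L := by
  have gg := 𝔇.isGood_ev s₀ L
  have h1 : fc (𝔇.ev s₀ L * 𝔇.iota y) u = fc (𝔇.ev s₀ L) (u * y⁻¹) := by
    rw [fc_mul gg, fc_iota, pt_iota, one_mul]
  have h2 : fc (𝔇.iota z * 𝔇.ev s₀ L) u = fc (𝔇.ev s₀ L) u := by
    rw [fc_mul (𝔇.isGood_iota z), fc_iota, mul_one]
  rw [h, h2] at h1
  have h3 := congrArg toWord h1
  rw [𝔇.toWord_fc_ev s₀ L hL, 𝔇.toWord_fc_ev s₀ L hL] at h3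
  exact h3.symm

theorem dom_of_conj {s₀ s : S} {e : M × Bool} {L : List ((M × Bool) × S)} (hL : 𝔇.Rd ((e, s) :: L))
    {y z : S} (h : 𝔇.ev s₀ ((e, s) :: L) * 𝔇.iota y = 𝔇.iota z * 𝔇.ev s₀ ((e, s) :: L)) :
    (e.2 = true → s * y * s⁻¹ ∈ 𝔇.D e.1) ∧ (e.2 = false → s * y * s⁻¹ ∈ (𝔇.φ e.1).range) := by
  have h1 := 𝔇.wd_eq_of_conj hL h s
  have h2 : 𝔇.lt e (s * y⁻¹ * s⁻¹) = 𝔇.lt e (s * s⁻¹) := (List.cons.inj h1).1
  rw [mul_inv_cancel] at h2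
  obtain ⟨m, b⟩ := e
  cases b
  · refine ⟨fun h => absurd h (by simp), fun _ => ?_⟩
    simp only [lt, cond_false, Prod.mk.injEq, true_and, and_true] at h2
    rw [cos_eq_iff] at h2
    set d : 𝔇.D m := ⟨_, h2⟩ with hd
    have h3 := 𝔇.hσ m ((𝔇.σ m)⁻¹ (s * y⁻¹ * s⁻¹)) d
    have h4 : (𝔇.σ m)⁻¹ (s * y⁻¹ * s⁻¹) * (d : S) = (𝔇.σ m)⁻¹ 1 := by simp [hd]
    rw [h4] at h3
    have h5 : 𝔇.σ m ((𝔇.σ m)⁻¹ (1 : S)) = 1 := by simp
    have h6 : 𝔇.σ m ((𝔇.σ m)⁻¹ (s * y⁻¹ * s⁻¹)) = s * y⁻¹ * s⁻¹ := by simp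
    rw [h5, h6] at h3
    refine ⟨d, ?_⟩
    have h7 : s * y⁻¹ * s⁻¹ = (s * y * s⁻¹)⁻¹ := by group
    rw [h7] at h3
    exact (inv_mul_eq_one.1 h3.symm).symm
  · refine ⟨fun _ => ?_, fun h => absurd h (by simp)⟩
    simp only [lt, cond_true, Prod.mk.injEq, true_and, and_true] at h2
    rw [cos_eq_iff] at h2
    have h7 : (s * y⁻¹ * s⁻¹)⁻¹ * 1 = s * y * s⁻¹ := by group
    rwa [h7] at h2

theorem conj_step (s₀ s y : S) (e : M × Bool) (L : List ((M × Bool) × S)) :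
    𝔇.ev s₀ ((e, s) :: L) * 𝔇.iota y * (𝔇.ev s₀ ((e, s) :: L))⁻¹ =
      𝔇.ev s₀ L * (𝔇.T e * 𝔇.iota (s * y * s⁻¹) * (𝔇.T e)⁻¹) * (𝔇.ev s₀ L)⁻¹ := by
  show (𝔇.ev s₀ L * 𝔇.T e * 𝔇.iota s) * 𝔇.iota y * (𝔇.ev s₀ L * 𝔇.T e * 𝔇.iota s)⁻¹ = _
  rw [_root_.map_mul, _root_.map_mul, _root_.map_inv]
  group

end HData

section Intertwiner

variable {S : Type u} [Group S] [Finite S]

/-- Two free actions of a subgroup on a finite group by right translation are equivalent. -/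
theorem exists_intertwiner (D : Subgroup S) (φ : D →* S) (hφ : Function.Injective φ) :
    ∃ σ : Equiv.Perm S, ∀ (u : S) (x : D), σ (u * x) = σ u * φ x := by
  classical
  have hcard : Nat.card (S ⧸ D) = Nat.card (S ⧸ φ.range) := by
    have h1 := Subgroup.card_eq_card_quotient_mul_card_subgroup D
    have h2 := Subgroup.card_eq_card_quotient_mul_card_subgroup φ.range
    have h3 : Nat.card φ.range = Nat.card D :=
      (Nat.card_congr (MonoidHom.ofInjective hφ).toEquiv).symm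
    rw [h3, h1] at h2
    have hpos : 0 < Nat.card D := Nat.card_pos
    exact Nat.eq_of_mul_eq_mul_right hpos h2
  obtain ⟨e⟩ : Nonempty ((S ⧸ D) ≃ (S ⧸ φ.range)) := Finite.card_eq.1 hcard
  have hmem : ∀ u : S, (Quotient.out (u : S ⧸ D))⁻¹ * u ∈ D := by
    intro u
    rw [← QuotientGroup.eq]
    exact QuotientGroup.out_eq' _
  let f : S → S := fun u =>
    Quotient.out (e (u : S ⧸ D)) * φ ⟨(Quotient.out (u : S ⧸ D))⁻¹ * u, hmem u⟩
  have hf : ∀ (u : S) (x : D), f (u * x) = f u * φ x := by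
    intro u x
    have hq : ((u * x : S) : S ⧸ D) = (u : S ⧸ D) := by
      rw [QuotientGroup.eq]
      simp
    show Quotient.out (e ((u * x : S) : S ⧸ D)) * φ ⟨(Quotient.out ((u * x : S) : S ⧸ D))⁻¹ * (u * x), hmem _⟩ = _
    have h5 : (⟨(Quotient.out ((u * x : S) : S ⧸ D))⁻¹ * (u * x), hmem _⟩ : D) =
        ⟨(Quotient.out (u : S ⧸ D))⁻¹ * u, hmem u⟩ * x := by
      apply Subtype.ext
      show (Quotient.out ((u * x : S) : S ⧸ D))⁻¹ * (u * x) = (Quotient.out (u : S ⧸ D))⁻¹ * u * x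
      rw [hq, mul_assoc]
    rw [h5, _root_.map_mul, hq, ← mul_assoc]
  have hinj : Function.Injective f := by
    intro u v huv
    have hcoset : e (u : S ⧸ D) = e (v : S ⧸ D) := by
      have h1 : ((f u : S) : S ⧸ φ.range) = Quotient.out (e (u : S ⧸ D)) := by
        rw [QuotientGroup.eq]
        simp [f]
      have h2 : ((f v : S) : S ⧸ φ.range) = Quotient.out (e (v : S ⧸ D)) := by
        rw [QuotientGroup.eq]
        simp [f]
      have h3 : ((Quotient.out (e (u : S ⧸ D)) : S) : S ⧸ φ.range) =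
          ((Quotient.out (e (v : S ⧸ D)) : S) : S ⧸ φ.range) := by
        rw [← h1, ← h2, huv]
      simpa [QuotientGroup.out_eq'] using h3
    have hq : (u : S ⧸ D) = (v : S ⧸ D) := e.injective hcoset
    have h4 : f u = Quotient.out (e (u : S ⧸ D)) * φ ⟨(Quotient.out (u : S ⧸ D))⁻¹ * u, hmem u⟩ := rfl
    have h5 : f v = Quotient.out (e (v : S ⧸ D)) * φ ⟨(Quotient.out (v : S ⧸ D))⁻¹ * v, hmem v⟩ := rfl
    rw [h4, h5, hcoset] at huv
    have h6 := hφ (mul_left_cancel huv)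
    have h7 : (Quotient.out (u : S ⧸ D))⁻¹ * u = (Quotient.out (v : S ⧸ D))⁻¹ * v :=
      congrArg Subtype.val h6
    rw [hq] at h7
    exact mul_left_cancel h7
  exact ⟨Equiv.ofBijective f (Finite.injective_iff_bijective.1 hinj), hf⟩

end Intertwiner


/-! ### Part 5: fusion systems -/

section Fusion

open Cfsg

variable {Ω : Type u} [Group Ω] {S : Subgroup Ω} (F : FusionSystem S)

/-- The index set: all the maps of the system. -/
abbrev FM := Σ P : Subgroup Ω, {φ : P →* Ω // φ ∈ F.Hom P}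

/-- The domain inside `S`. -/
def fD (m : FM F) : Subgroup S := m.1.subgroupOf S

/-- The map on `S`. -/
def fφ (m : FM F) : fD F m →* S where
  toFun x := ⟨m.2.1 ⟨x.1.1, x.2⟩, (F.le_of_mem m.2.2).2 _⟩
  map_one' := by
    apply Subtype.ext
    exact map_one m.2.1
  map_mul' x y := by
    apply Subtype.ext
    exact map_mul m.2.1 ⟨x.1.1, x.2⟩ ⟨y.1.1, y.2⟩

theorem fφ_injective (m : FM F) : Function.Injective (fφ F m) := by
  intro x y h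
  have h1 : m.2.1 ⟨x.1.1, x.2⟩ = m.2.1 ⟨y.1.1, y.2⟩ := congrArg Subtype.val h
  have h2 := F.injective_of_mem m.2.2 h1
  apply Subtype.ext
  apply Subtype.ext
  have h3 : ((⟨x.1.1, x.2⟩ : m.1) : Ω) = ((⟨y.1.1, y.2⟩ : m.1) : Ω) := by rw [h2]
  exact h3

variable [Finite S]

/-- The data. -/
noncomputable def fData : HData S (FM F) where
  D := fD F
  φ := fφ F
  σ m := (exists_intertwiner (fD F m) (fφ F m) (fφ_injective F m)).choose
  hσ m := (exists_intertwiner (fD F m) (fφ F m) (fφ_injective F m)).choose_spec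

theorem back (L : List ((FM F × Bool) × S)) : ∀ (s₀ : S), (fData F).Rd L →
    ∀ (P : Subgroup Ω) (φ ψ : P →* Ω) (hφ : ∀ x, φ x ∈ S) (hψmem : ψ ∈ F.Hom P),
    (∀ x : P, (fData F).ev s₀ L * (fData F).iota ⟨ψ x, (F.le_of_mem hψmem).2 x⟩ *
        ((fData F).ev s₀ L)⁻¹ = (fData F).iota ⟨φ x, hφ x⟩) → φ ∈ F.Hom P := by
  induction L with
  | nil =>
    intro s₀ _ P φ ψ hφ hψmem h
    have h1 : φ = (conjHom S (s₀ : Ω)).comp (ψ.codRestrict S (F.le_of_mem hψmem).2) := by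
      ext x
      have h2 := h x
      have h3 : (fData F).ev s₀ [] = (fData F).iota s₀ := rfl
      rw [h3, ← _root_.map_inv, ← _root_.map_mul, ← _root_.map_mul] at h2
      have h4 := (fData F).iota_injective h2
      have h5 := congrArg Subtype.val h4
      exact h5.symm
    rw [h1]
    exact F.comp_mem hψmem (F.conj_mem le_rfl s₀.2) _
  | cons p L ih =>
    intro s₀ hL P φ ψ hφ hψmem h
    obtain ⟨e, s⟩ := p
    have hL' : (fData F).Rd L := List.isChain_of_isChain_cons hL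
    have hdom := fun x : P => (fData F).dom_of_conj (s₀ := s₀) (y := ⟨ψ x, (F.le_of_mem hψmem).2 x⟩)
      (z := ⟨φ x, hφ x⟩) hL (by rw [← h x]; group)
    have hstep := fun x : P => ((fData F).conj_step s₀ s ⟨ψ x, (F.le_of_mem hψmem).2 x⟩ e L).symm.trans (h x)
    let ψ₁ : P →* Ω := (conjHom S (s : Ω)).comp (ψ.codRestrict S (F.le_of_mem hψmem).2)
    have hψ₁ : ψ₁ ∈ F.Hom P := F.comp_mem hψmem (F.conj_mem le_rfl s.2) _
    have hψ₁x : ∀ x : P, ψ₁ x = ((s * ⟨ψ x, (F.le_of_mem hψmem).2 x⟩ * s⁻¹ : S) : Ω) := fun x => rfl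
    obtain ⟨m, b⟩ := e
    obtain ⟨Q, θ, hθ⟩ := m
    cases b
    · -- negative letter
      have hran : ∀ x : P, ψ₁ x ∈ θ.range := by
        intro x
        obtain ⟨d, hd⟩ := (hdom x).2 rfl
        refine ⟨⟨d.1.1, d.2⟩, ?_⟩
        rw [hψ₁x, ← hd]
        rfl
      obtain ⟨χ, hχ, hχx⟩ := F.inv_mem hθ
      have hψ' := F.comp_mem hψ₁ hχ hran
      refine ih s₀ hL' P φ _ hφ hψ' (fun x => ?_)
      have h1 := hstep x
      obtain ⟨d, hd⟩ := (hdom x).2 rfl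
      have key := (fData F).tau_inv_iota_tau (⟨Q, θ, hθ⟩ : FM F) d
      have h2 : ((d : S) : Ω) = (χ.comp (ψ₁.codRestrict θ.range hran)) x := by
        have h3 := hχx ⟨d.1.1, d.2⟩
        have h4 : ψ₁.codRestrict θ.range hran x = ⟨θ ⟨d.1.1, d.2⟩, ⟨_, rfl⟩⟩ := by
          apply Subtype.ext
          show ψ₁ x = θ ⟨d.1.1, d.2⟩
          rw [hψ₁x, ← hd]
          rfl
        show ((d : S) : Ω) = χ (ψ₁.codRestrict θ.range hran x)
        rw [h4, h3]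
      have h5 : (d : S) = ⟨(χ.comp (ψ₁.codRestrict θ.range hran)) x, (F.le_of_mem hψ').2 x⟩ :=
        Subtype.ext h2
      have key' : (fData F).T ((⟨Q, θ, hθ⟩ : FM F), false) *
          (fData F).iota (s * ⟨ψ x, (F.le_of_mem hψmem).2 x⟩ * s⁻¹) *
          ((fData F).T ((⟨Q, θ, hθ⟩ : FM F), false))⁻¹ =
          (fData F).iota ⟨(χ.comp (ψ₁.codRestrict θ.range hran)) x, (F.le_of_mem hψ').2 x⟩ := by
        show ((fData F).tau _)⁻¹ * _ * (((fData F).tau _)⁻¹)⁻¹ = _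
        rw [inv_inv, ← h5, ← key, hd]
      rw [key'] at h1
      exact h1
    · -- positive letter
      have hran : ∀ x : P, ψ₁ x ∈ Q := fun x => (hdom x).1 rfl
      have hψ' := F.comp_mem hψ₁ hθ hran
      refine ih s₀ hL' P φ _ hφ hψ' (fun x => ?_)
      have h1 := hstep x
      have key : (fData F).T ((⟨Q, θ, hθ⟩ : FM F), true) *
          (fData F).iota (s * ⟨ψ x, (F.le_of_mem hψmem).2 x⟩ * s⁻¹) *
          ((fData F).T ((⟨Q, θ, hθ⟩ : FM F), true))⁻¹ =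
          (fData F).iota ⟨(θ.comp (ψ₁.codRestrict Q hran)) x, (F.le_of_mem hψ').2 x⟩ :=
        (fData F).tau_iota_tau_inv (⟨Q, θ, hθ⟩ : FM F) ⟨_, (hdom x).1 rfl⟩
      rw [key] at h1
      exact h1

/-- Leary--Stancu. -/
theorem realization :
    ∃ (G : Type u) (_ : Group G) (ι : ↥S →* G), F.IsRealizedBy ι ∧
      (∀ H : Subgroup G, Finite ↥H → ∃ g : G, ∀ h ∈ H, g * h * g⁻¹ ∈ ι.range) ∧
      ∃ N : Subgroup G, N.Normal ∧ IsFreeGroup ↥N ∧ N.index ∣ (Nat.card ↥S).factorial := by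
  refine ⟨(fData F).GG, inferInstance, (fData F).iotaG, ⟨(fData F).iotaG_injective, ?_⟩,
    fun H _ => (fData F).finite_conj H, (fData F).rho.ker, inferInstance, (fData F).ker_isFree,
    (fData F).ker_index_dvd⟩
  intro P hP φ hφ
  constructor
  · intro hmem
    refine ⟨⟨(fData F).tau ⟨P, φ, hmem⟩, (fData F).tau_mem_GG _⟩, fun x => ?_⟩
    apply Subtype.ext
    exact ((fData F).tau_iota_tau_inv (⟨P, φ, hmem⟩ : FM F) ⟨⟨x, hP x.2⟩, x.2⟩).symm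
  · rintro ⟨g, hg⟩
    obtain ⟨s₀, L, hgL, hL⟩ := (fData F).exists_normal_form g.2
    refine back F L s₀ hL P φ (conjHom P 1) hφ (F.conj_mem hP S.one_mem) (fun x => ?_)
    have h1 := congrArg Subtype.val (hg x)
    have h2 : ((fData F).iotaG ⟨φ x, hφ x⟩).1 = (fData F).iota ⟨φ x, hφ x⟩ := rfl
    rw [h2] at h1
    rw [h1, ← hgL]
    show _ = (g * (fData F).iotaG ⟨x, hP x.2⟩ * g⁻¹).1
    have h3 : (⟨(conjHom P 1) x, (F.le_of_mem (F.conj_mem hP S.one_mem)).2 x⟩ : S) = ⟨x, hP x.2⟩ := by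
      apply Subtype.ext
      simp [conjHom]
    rw [h3]
    rfl

end Fusion

end Cfsg.Agent.LearyStancu
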