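import Mathlib
import Cfsg.Prelude.Def_Solvable
import Cfsg.Agent.Lib.PCore
import Cfsg.Agent.Lib.HeisBound
import Cfsg.Agent.Lib.ElusiveCount
import Cfsg.Agent.Lib.Zsig

/-!
# Solvable linear groups transitive on the points and the lines of a projective space
-/

set_option autoImplicit false
set_option linter.style.haveILetI false
set_option linter.unusedSectionVars false

open Module Cfsg Cfsg.Agent.Lib.PCore

namespace Cfsg.Agent.Lib.LinTrans

variable {p : ℕ} [hp : Fact p.Prime] {V : Type*} [AddCommGroup V] [Module (ZMod p) V] [Finite V]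
  {t' s' : ℕ}

/-- `s` is a primitive prime divisor of `p ^ t - 1`. -/
structure Prim (p t s : ℕ) : Prop where
  prime : s.Prime
  dvd : s ∣ p ^ t - 1
  not_dvd : ∀ k : ℕ, 0 < k → k < t → ¬ s ∣ p ^ k - 1

theorem exists_lift {L : Type*} [Group L] (ρ : L →* Module.End (ZMod p) V)
    (hρ : Function.Injective ρ) :
    ∃ ρK : L →* Module.End (AlgebraicClosure (ZMod p))
      (Fin (finrank (ZMod p) V) → AlgebraicClosure (ZMod p)), Function.Injective ρK := by
  haveI : FiniteDimensional (ZMod p) V := Module.Finite.of_finite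
  let K := AlgebraicClosure (ZMod p)
  let b := Module.finBasis (ZMod p) V
  let φ₁ := LinearMap.toMatrixAlgEquiv b
  let φ₂ : Matrix (Fin (finrank (ZMod p) V)) (Fin (finrank (ZMod p) V)) (ZMod p) →+*
      Matrix (Fin (finrank (ZMod p) V)) (Fin (finrank (ZMod p) V)) K :=
    (algebraMap (ZMod p) K).mapMatrix
  let φ₃ : Matrix (Fin (finrank (ZMod p) V)) (Fin (finrank (ZMod p) V)) K ≃ₐ[K] _ :=
    Matrix.toLinAlgEquiv' (R := K) (n := Fin (finrank (ZMod p) V))
  refine ⟨((MonoidHomClass.toMonoidHom φ₃).comp ((MonoidHomClass.toMonoidHom φ₂).comp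
    ((MonoidHomClass.toMonoidHom φ₁).comp ρ))), ?_⟩
  intro a b' hab
  apply hρ
  apply φ₁.injective
  have h2 : Function.Injective φ₂ := Matrix.map_injective (algebraMap (ZMod p) K).injective
  apply h2
  exact φ₃.injective hab

/-- An element of prime order `s ≥ dim + 2` in a solvable faithful linear group with `O_p = 1`
forces `O_s ≠ 1`. -/
theorem pCore_ne_bot {L : Type*} [Group L] [Finite L] [Group.IsSolvable L]
    (ρ : L →* Module.End (ZMod p) V) (hρ : Function.Injective ρ) (hOp : pCore p L = ⊥)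
    {s : ℕ} [hs : Fact s.Prime] (hsp : s ≠ p) (y : L) (hy : orderOf y = s)
    (hsn : finrank (ZMod p) V + 2 ≤ s) : pCore s L ≠ ⊥ := by
  classical
  intro hOs
  obtain ⟨ρK, hρK⟩ := exists_lift ρ hρ
  have hcent : ∀ q : Nat.Primes, pCore (q : ℕ) L ≤ Subgroup.centralizer {y} := by
    intro q
    haveI : Fact (q : ℕ).Prime := ⟨q.2⟩
    by_cases hqp : (q : ℕ) = p
    · rw [hqp, hOp]; exact bot_le
    by_cases hqs : (q : ℕ) = s
    · rw [hqs, hOs]; exact bot_le
    intro a ha
    rw [Subgroup.mem_centralizer_singleton_iff]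
    by_contra hne
    have hbound := Cfsg.Agent.Lib.HeisBound.bound ρK hρK (q := (q : ℕ)) (s := s)
      (by
        haveI : CharP (AlgebraicClosure (ZMod p)) p := inferInstance
        intro h0
        have := (CharP.cast_eq_zero_iff (AlgebraicClosure (ZMod p)) p (q : ℕ)).mp h0
        exact hqp ((Nat.prime_dvd_prime_iff_eq hp.out q.2).mp this).symm)
      hqs (pCore (q : ℕ) L) (isPGroup_pCore _) y hy
      (fun a ha => (pCore_normal (q : ℕ)).conj_mem a ha y)
      ⟨a, ha, fun h => hne (by
        rw [mul_inv_eq_iff_eq_mul] at h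
        exact h.symm)⟩
    rw [Module.finrank_fin_fun] at hbound
    omega
  have hF : fittingSubgroup L ≤ Subgroup.centralizer {y} := by
    rw [fittingSubgroup_eq_iSup_pCore]
    exact iSup_le hcent
  have hyF : y ∈ fittingSubgroup L := by
    apply centralizer_fittingSubgroup_le
    rw [Subgroup.mem_centralizer_iff]
    intro g hg
    have := hF hg
    rw [Subgroup.mem_centralizer_singleton_iff] at this
    exact this
  have hle := fittingSubgroup_le_sup (G := L) s
  rw [hOs, bot_sup_eq] at hle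
  have hmem : y ∈ pPrimeCore s L := hle hyF
  have h1 : s ∣ Nat.card (pPrimeCore s L) := by
    have := Subgroup.orderOf_dvd_natCard (pPrimeCore s L) hmem
    rwa [hy] at this
  exact not_dvd_card_pPrimeCore s h1


omit [Module (ZMod p) V] [Finite V] [AddCommGroup V] in
theorem card_eq_pow (W : Type*) [AddCommGroup W] [Module (ZMod p) W] [Finite W] :
    Nat.card W = p ^ finrank (ZMod p) W := by
  haveI := Fintype.ofFinite W
  rw [Nat.card_eq_fintype_card, Module.card_eq_pow_finrank (K := ZMod p), ZMod.card]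

theorem pow_modEq {W : Type*} [AddCommGroup W] [Module (ZMod p) W] [Finite W]
    {s : ℕ} [hs : Fact s.Prime] (T : Module.End (ZMod p) W) (hT : T ^ s = 1) :
    p ^ finrank (ZMod p) W ≡ p ^ finrank (ZMod p) (LinearMap.ker (T - 1)) [MOD s] := by
  classical
  haveI := Fintype.ofFinite W
  let f : Function.End W := ⇑T
  have hfpow : ∀ k : ℕ, ∀ v, (f ^ k) v = (T ^ k) v := by
    intro k
    induction k with
    | zero => intro v; simp; rfl
    | succ k ih =>
      intro v
      rw [pow_succ', Function.End.mul_def, pow_succ', Module.End.mul_apply]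
      show T ((f ^ k) v) = _
      rw [ih]
  have hfs : f ^ s ^ 1 = 1 := by
    rw [pow_one]
    funext v
    rw [hfpow, hT]
    rfl
  have hmod := Equiv.Perm.card_fixedPoints_modEq (f := f) hfs
  have hfix : Fintype.card (Function.fixedPoints f) = Nat.card (LinearMap.ker (T - 1)) := by
    rw [← Nat.card_eq_fintype_card]
    refine Nat.card_congr (Equiv.subtypeEquivRight ?_)
    intro v
    rw [Function.mem_fixedPoints_iff, LinearMap.mem_ker, LinearMap.sub_apply, Module.End.one_apply,
      sub_eq_zero]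
  rw [hfix, ← Nat.card_eq_fintype_card, card_eq_pow (p := p) W, card_eq_pow (p := p) (LinearMap.ker (T - 1))] at hmod
  exact hmod

theorem Prim.ne (h : Prim p t' s') (ht : 0 < t') : s' ≠ p := by
  intro hsp
  subst hsp
  have h1 := h.dvd
  have h2 : s' ∣ s' ^ t' := dvd_pow_self _ ht.ne'
  have h3 : 1 ≤ s' ^ t' := Nat.one_le_pow _ _ hp.out.pos
  have h4 := (Nat.dvd_sub_iff_right h3 h2).mp h1
  exact hp.out.one_lt.ne' (Nat.dvd_one.mp h4)

/-- The order of `p` modulo `s` is `t`. -/
theorem Prim.orderOf_eq {t s : ℕ} [hs : Fact s.Prime] (h : Prim p t s) (ht : 0 < t) :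
    orderOf ((p : ZMod s)) = t := by
  have key : ∀ k : ℕ, s ∣ p ^ k - 1 ↔ (p : ZMod s) ^ k = 1 := by
    intro k
    have h1 : 1 ≤ p ^ k := Nat.one_le_pow _ _ hp.out.pos
    rw [← ZMod.natCast_eq_zero_iff, Nat.cast_sub h1]
    push_cast
    exact sub_eq_zero
  have hx : (p : ZMod s) ^ t = 1 := (key t).mp h.dvd
  have h1 : orderOf (p : ZMod s) ∣ t := orderOf_dvd_of_pow_eq_one hx
  have h2 : 0 < orderOf (p : ZMod s) :=
    orderOf_pos_iff.mpr (isOfFinOrder_iff_pow_eq_one.mpr ⟨t, ht, hx⟩)
  have h3 := Nat.le_of_dvd ht h1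
  by_contra hne
  have hlt : orderOf (p : ZMod s) < t := lt_of_le_of_ne h3 hne
  exact h.not_dvd _ h2 hlt ((key _).mpr (pow_orderOf_eq_one _))

theorem Prim.dvd_sub {t s : ℕ} [hs : Fact s.Prime] (h : Prim p t s) (ht : 0 < t) {a b : ℕ} (hb : b ≤ a)
    (hab : p ^ a ≡ p ^ b [MOD s]) : t ∣ a - b := by
  have hx : ((p : ZMod s)) ^ a = (p : ZMod s) ^ b := by
    have := (ZMod.natCast_eq_natCast_iff _ _ _).mpr hab
    simpa using this
  have hx0 : (p : ZMod s) ≠ 0 := by
    intro h0
    have := (ZMod.natCast_eq_zero_iff _ _).mp h0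
    exact h.ne ht ((Nat.prime_dvd_prime_iff_eq hs.out hp.out).mp this)
  have h1 : (p : ZMod s) ^ (a - b) = 1 := by
    have h2 : (p : ZMod s) ^ b * (p : ZMod s) ^ (a - b) = (p : ZMod s) ^ b * 1 := by
      rw [← pow_add, Nat.add_sub_cancel' hb, hx, mul_one]
    exact mul_left_cancel₀ (pow_ne_zero _ hx0) h2
  rw [← h.orderOf_eq ht]
  exact orderOf_dvd_of_pow_eq_one h1

theorem Prim.dvd_sub_one {t s : ℕ} [hs : Fact s.Prime] (h : Prim p t s) (ht : 0 < t) : t ∣ s - 1 := by
  have hx0 : (p : ZMod s) ≠ 0 := by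
    intro h0
    have := (ZMod.natCast_eq_zero_iff _ _).mp h0
    exact h.ne ht ((Nat.prime_dvd_prime_iff_eq hs.out hp.out).mp this)
  rw [← h.orderOf_eq ht]
  exact orderOf_dvd_of_pow_eq_one (ZMod.pow_card_sub_one_eq_one hx0)

/-- The fixed space has codimension divisible by the order. -/
theorem fix_dim {W : Type*} [AddCommGroup W] [Module (ZMod p) W] [Finite W] {t s : ℕ}
    [hs : Fact s.Prime] (h : Prim p t s) (ht : 0 < t) (T : Module.End (ZMod p) W) (hT : T ^ s = 1) :
    t ∣ finrank (ZMod p) W - finrank (ZMod p) (LinearMap.ker (T - 1)) :=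
  h.dvd_sub ht (Submodule.finrank_le _) (pow_modEq T hT)

theorem fpf_and_irr {n r : ℕ} [hr : Fact r.Prime] (hn : finrank (ZMod p) V = n) (hn0 : 0 < n)
    (h : Prim p n r) (T : Module.End (ZMod p) V) (hT : T ^ r = 1) (hT1 : T ≠ 1) :
    LinearMap.ker (T - 1) = ⊥ ∧ ∀ U : Submodule (ZMod p) V, (∀ u ∈ U, T u ∈ U) → U = ⊥ ∨ U = ⊤ := by
  haveI : FiniteDimensional (ZMod p) V := Module.Finite.of_finite
  have hker : LinearMap.ker (T - 1) = ⊥ := by
    have hne : LinearMap.ker (T - 1) ≠ ⊤ := by
      intro h0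
      apply hT1
      rw [LinearMap.ker_eq_top] at h0
      exact sub_eq_zero.mp h0
    have hlt := Submodule.finrank_lt hne
    have hdvd := fix_dim h hn0 T hT
    rw [hn] at hdvd hlt
    have hle := Nat.le_of_dvd (by omega) hdvd
    rw [← Submodule.finrank_eq_zero (R := ZMod p)]
    omega
  refine ⟨hker, fun U hU => ?_⟩
  let TU : Module.End (ZMod p) U := T.restrict hU
  have hTU : TU ^ r = 1 := by
    have hpow : ∀ k : ℕ, ∀ u : U, (((TU ^ k) u : U) : V) = (T ^ k) (u : V) := by
      intro k
      induction k with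
      | zero => intro u; simp
      | succ k ih =>
        intro u
        rw [pow_succ', pow_succ', Module.End.mul_apply, Module.End.mul_apply]
        show T (((TU ^ k) u : U) : V) = _
        rw [ih]
    ext u
    rw [hpow, hT]
    simp
  have hkerU : LinearMap.ker (TU - 1) = ⊥ := by
    rw [LinearMap.ker_eq_bot']
    intro u hu
    have h1 : T (u : V) = u := by
      have := congrArg Subtype.val hu
      simpa [TU, sub_eq_zero] using this
    have h2 : (u : V) ∈ LinearMap.ker (T - 1) := by
      rw [LinearMap.mem_ker, LinearMap.sub_apply, h1, Module.End.one_apply, sub_self]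
    rw [hker] at h2
    exact Subtype.ext ((Submodule.mem_bot _).mp h2)
  have hdvd := fix_dim h hn0 TU hTU
  rw [hkerU, finrank_bot, Nat.sub_zero] at hdvd
  have hle : finrank (ZMod p) U ≤ n := hn ▸ Submodule.finrank_le U
  by_cases h0 : finrank (ZMod p) U = 0
  · left
    exact Submodule.finrank_eq_zero.mp h0
  · right
    have h1 := Nat.le_of_dvd (Nat.pos_of_ne_zero h0) hdvd
    exact Submodule.eq_top_of_finrank_eq (by omega)

/-- Endomorphisms commuting with an irreducible `T` are zero or injective. -/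
theorem inj_of_comm {n r : ℕ} [hr : Fact r.Prime] (hn : finrank (ZMod p) V = n) (hn0 : 0 < n)
    (h : Prim p n r) (T : Module.End (ZMod p) V) (hT : T ^ r = 1) (hT1 : T ≠ 1)
    (a : Module.End (ZMod p) V) (ha : a * T = T * a) (ha0 : a ≠ 0) : Function.Injective a := by
  have := (fpf_and_irr hn hn0 h T hT hT1).2 (LinearMap.ker a) (by
    intro u hu
    rw [LinearMap.mem_ker] at hu ⊢
    have := congrArg (fun f => f u) ha
    simp only [Module.End.mul_apply] at this
    rw [this, hu, map_zero])
  rcases this with h1 | h1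
  · exact LinearMap.ker_eq_bot.mp h1
  · exact absurd (LinearMap.ker_eq_top.mp h1) ha0

omit [Module (ZMod p) V] [Finite V] [AddCommGroup V] in
theorem exists_ringEquiv {A : Type*} [Ring A] [IsDomain A] [Finite A] {n : ℕ} (hn : n ≠ 0)
    (hcard : Nat.card A = p ^ n) : Nonempty (A ≃+* GaloisField p n) := by
  classical
  letI : Field A := (Finite.isDomain_to_isField A).toField
  haveI := Fintype.ofFinite A
  haveI : Finite (GaloisField p n) := Nat.finite_of_card_ne_zero (by
    rw [GaloisField.card p n hn]; exact (pow_pos hp.out.pos _).ne')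
  haveI := Fintype.ofFinite (GaloisField p n)
  have h : Fintype.card A = Fintype.card (GaloisField p n) := by
    rw [← Nat.card_eq_fintype_card, ← Nat.card_eq_fintype_card, hcard, GaloisField.card p n hn]
  exact ⟨FiniteField.ringEquivOfCardEq h⟩

/-- The field package: the centralizer of an irreducible `T` of prime order is the field of
order `p ^ n`, and `V` is a one-dimensional vector space over it. -/
theorem field_package {n r : ℕ} [hr : Fact r.Prime] (hn : finrank (ZMod p) V = n) (hn0 : 0 < n)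
    (h : Prim p n r) (T : Module.End (ZMod p) V) (hT : T ^ r = 1) (hT1 : T ≠ 1) :
    ∃ (i : GaloisField p n →+* Module.End (ZMod p) V) (e : V ≃+ GaloisField p n),
      (∀ a v, e (i a v) = a * e v) ∧ (∀ b : Module.End (ZMod p) V, b * T = T * b → ∃ a, b = i a) := by
  classical
  haveI : Finite (Module.End (ZMod p) V) :=
    Finite.of_injective (fun f => (f : V → V)) DFunLike.coe_injective
  haveI : FiniteDimensional (ZMod p) V := Module.Finite.of_finite
  have hVne : Nontrivial V := by
    apply Module.nontrivial_of_finrank_pos (R := ZMod p)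
    omega
  obtain ⟨v₀, hv₀⟩ := exists_ne (0 : V)
  let A : Subalgebra (ZMod p) (Module.End (ZMod p) V) := Subalgebra.centralizer (ZMod p) {T}
  have hAmem : ∀ b, b ∈ A ↔ b * T = T * b := by
    intro b
    show b ∈ Subalgebra.centralizer (ZMod p) {T} ↔ _
    rw [Subalgebra.mem_centralizer_iff]
    simp [eq_comm]
  have hinj := inj_of_comm hn hn0 h T hT hT1
  have hTA : T ∈ A := (hAmem T).mpr rfl
  -- evaluation is bijective
  have hev : ∀ a b : Module.End (ZMod p) V, a ∈ A → b ∈ A → a v₀ = b v₀ → a = b := by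
    intro a b ha hb hab
    by_contra hne
    have h1 : (a - b) * T = T * (a - b) := by
      rw [sub_mul, mul_sub, (hAmem a).mp ha, (hAmem b).mp hb]
    have h2 := hinj (a - b) h1 (sub_ne_zero.mpr hne)
    have h3 : (a - b) v₀ = (a - b) 0 := by
      rw [LinearMap.sub_apply, hab, sub_self, map_zero]
    exact hv₀ (h2 h3)
  have hsurj : ∀ v : V, ∃ a ∈ A, a v₀ = v := by
    let U : Submodule (ZMod p) V :=
      { carrier := {v | ∃ a ∈ A, a v₀ = v}
        add_mem' := fun {x y} hx hy => by
          obtain ⟨a, ha, rfl⟩ := hx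
          obtain ⟨b, hb, rfl⟩ := hy
          exact ⟨a + b, A.add_mem ha hb, rfl⟩
        zero_mem' := ⟨0, A.zero_mem, rfl⟩
        smul_mem' := fun c x hx => by
          obtain ⟨a, ha, rfl⟩ := hx
          exact ⟨c • a, A.smul_mem ha c, rfl⟩ }
    have hU := (fpf_and_irr hn hn0 h T hT hT1).2 U (by
      rintro u ⟨a, ha, rfl⟩
      exact ⟨T * a, A.mul_mem hTA ha, rfl⟩)
    rcases hU with h1 | h1
    · have : v₀ ∈ U := ⟨1, A.one_mem, rfl⟩
      rw [h1] at this
      exact absurd ((Submodule.mem_bot _).mp this) hv₀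
    · intro v
      have : v ∈ U := by rw [h1]; trivial
      exact this
  -- `A` is a domain of the right order
  haveI : NoZeroDivisors A := ⟨by
    rintro ⟨a, ha⟩ ⟨b, hb⟩ hab
    by_cases ha0 : a = 0
    · left; exact Subtype.ext ha0
    right
    apply Subtype.ext
    have h1 := hinj a ((hAmem a).mp ha) ha0
    ext v
    have h2 : a (b v) = a 0 := by
      have := congrArg (fun f : A => (f : Module.End (ZMod p) V) v) hab
      simpa using this
    simpa using h1 h2⟩
  haveI : Nontrivial A := ⟨⟨0, 1, fun h0 => by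
    have := congrArg (fun f : A => (f : Module.End (ZMod p) V) v₀) h0
    simp at this
    exact hv₀ this.symm⟩⟩
  haveI : IsDomain A := NoZeroDivisors.to_isDomain A
  let evA : A → V := fun a => (a : Module.End (ZMod p) V) v₀
  have hevA : Function.Bijective evA := by
    constructor
    · intro a b hab
      exact Subtype.ext (hev _ _ a.2 b.2 hab)
    · intro v
      obtain ⟨a, ha, hav⟩ := hsurj v
      exact ⟨⟨a, ha⟩, hav⟩
  have hcardA : Nat.card A = p ^ n := by
    rw [Nat.card_congr (Equiv.ofBijective evA hevA), card_eq_pow (p := p) V, hn]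
  obtain ⟨ψ⟩ := exists_ringEquiv (A := A) hn0.ne' hcardA
  let i : GaloisField p n →+* Module.End (ZMod p) V :=
    { toFun := fun x => ((ψ.symm x : A) : Module.End (ZMod p) V)
      map_one' := by rw [map_one]; rfl
      map_mul' := fun x y => by rw [map_mul]; rfl
      map_zero' := by rw [map_zero]; rfl
      map_add' := fun x y => by rw [map_add]; rfl }
  have hiA : ∀ x, i x ∈ A := fun x => (ψ.symm x).2
  let ev' : A ≃+ V := AddEquiv.mk' (Equiv.ofBijective evA hevA) (by
    intro a b
    show ((a + b : A) : Module.End (ZMod p) V) v₀ = _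
    rw [Subalgebra.coe_add, LinearMap.add_apply]
    rfl)
  let e : V ≃+ GaloisField p n := ev'.symm.trans ψ.toAddEquiv
  have hev'symm : ∀ a : A, ev'.symm ((a : Module.End (ZMod p) V) v₀) = a := fun a =>
    ev'.symm_apply_apply a
  refine ⟨i, e, ?_, ?_⟩
  · intro a v
    obtain ⟨b, hb⟩ := hevA.2 v
    have hb' : v = (b : Module.End (ZMod p) V) v₀ := hb.symm
    subst hb'
    have h1 : i a ((b : Module.End (ZMod p) V) v₀) =
        ((ψ.symm a * b : A) : Module.End (ZMod p) V) v₀ := rfl
    show ψ (ev'.symm (i a _)) = a * ψ (ev'.symm _)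
    rw [h1, hev'symm, hev'symm, map_mul, ψ.apply_symm_apply]
  · intro b hb
    obtain ⟨a, ha, hav⟩ := hsurj (b v₀)
    refine ⟨ψ ⟨a, ha⟩, ?_⟩
    have h1 : i (ψ ⟨a, ha⟩) = a := by
      show ((ψ.symm (ψ ⟨a, ha⟩) : A) : Module.End (ZMod p) V) = a
      rw [ψ.symm_apply_apply]
    rw [h1]
    exact hev _ _ ((hAmem b).mpr hb) ha hav.symm

end Cfsg.Agent.Lib.LinTrans
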