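import Mathlib
import Cfsg.Agent.Lib.LinTrans

/-!
# Solvable linear groups transitive on the points and the lines: the structure
-/

set_option autoImplicit false
set_option linter.style.haveILetI false
set_option linter.unusedSectionVars false

open Module Cfsg Cfsg.Agent.Lib.PCore
open scoped commutatorElement

namespace Cfsg.Agent.Lib.LinTrans

variable {p : ℕ} [hp : Fact p.Prime] {V : Type*} [AddCommGroup V] [Module (ZMod p) V] [Finite V]

/-- Fixed points of a `p`-group. -/
theorem exists_fixed {R : Type*} [Group R] [Finite R] (hR : IsPGroup p R) (ρ : R →* Module.End (ZMod p) V)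
    (hV : Nontrivial V) : ∃ v : V, v ≠ 0 ∧ ∀ r, ρ r v = v := by
  letI : MulAction R V :=
    { smul := fun r v => ρ r v
      one_smul := fun v => by
        show ρ 1 v = v
        rw [map_one]; rfl
      mul_smul := fun a b v => by
        show ρ (a * b) v = ρ a (ρ b v)
        rw [map_mul]; rfl }
  have hd : p ∣ Nat.card V := by
    rw [card_eq_pow (p := p) V]
    apply dvd_pow_self
    have : 0 < finrank (ZMod p) V := Module.finrank_pos
    omega
  have h0 : (0 : V) ∈ MulAction.fixedPoints R V := fun r => map_zero (ρ r)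
  obtain ⟨b, hb, hne⟩ := hR.exists_fixed_point_of_prime_dvd_card_of_fixed_point V hd h0
  exact ⟨b, hne.symm, fun r => hb r⟩

section main

variable {L : Type*} [Group L] [Finite L] (ρ : L →* Module.End (ZMod p) V)

omit [Finite V] in
theorem rho_inv_apply (g : L) (v : V) : ρ g⁻¹ (ρ g v) = v := by
  rw [← Module.End.mul_apply, ← map_mul, inv_mul_cancel, map_one, Module.End.one_apply]

omit [Finite V] in
theorem rho_apply_inv (g : L) (v : V) : ρ g (ρ g⁻¹ v) = v := by
  rw [← Module.End.mul_apply, ← map_mul, mul_inv_cancel, map_one, Module.End.one_apply]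

theorem rho_injective (g : L) : Function.Injective (ρ g) := fun a b hab => by
  rw [← rho_inv_apply ρ g a, hab, rho_inv_apply]

theorem finrank_map (g : L) (U : Submodule (ZMod p) V) :
    finrank (ZMod p) (U.map (ρ g)) = finrank (ZMod p) U :=
  (LinearEquiv.finrank_eq (Submodule.equivMapOfInjective (ρ g) (rho_injective ρ g) U)).symm

/-- Transitivity gives divisibility. -/
theorem card_dvd (k : ℕ) (hk : ∃ W : Submodule (ZMod p) V, finrank (ZMod p) W = k)
    (hT : ∀ U U' : Submodule (ZMod p) V, finrank (ZMod p) U = k → finrank (ZMod p) U' = k →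
      ∃ g, U' = U.map (ρ g)) :
    Nat.card {W : Submodule (ZMod p) V // finrank (ZMod p) W = k} ∣ Nat.card L := by
  classical
  obtain ⟨W₀, hW₀⟩ := hk
  letI : MulAction L (Submodule (ZMod p) V) :=
    { smul := fun g W => W.map (ρ g)
      one_smul := fun W => by
        show W.map (ρ 1) = W
        rw [map_one]
        exact Submodule.map_id W
      mul_smul := fun a b W => by
        show W.map (ρ (a * b)) = (W.map (ρ b)).map (ρ a)
        rw [map_mul, ← Submodule.map_comp]
        rfl }
  have h1 := MulAction.index_stabilizer L W₀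
  have h2 : Nat.card (MulAction.orbit L W₀) =
      Nat.card {W : Submodule (ZMod p) V // finrank (ZMod p) W = k} := by
    refine Nat.card_congr (Equiv.subtypeEquivRight fun W => ?_)
    constructor
    · rintro ⟨g, rfl⟩
      show finrank (ZMod p) (W₀.map (ρ g)) = k
      rw [finrank_map, hW₀]
    · intro h
      obtain ⟨g, hg⟩ := hT W₀ W hW₀ h
      exact ⟨g, hg.symm⟩
  rw [← h2, Nat.card_coe_set_eq, ← h1]
  exact Subgroup.index_dvd_card _

variable {ρ}

/-- Transitivity on lines gives irreducibility. -/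
theorem irr_of_trans (hT1 : ∀ U U' : Submodule (ZMod p) V, finrank (ZMod p) U = 1 →
      finrank (ZMod p) U' = 1 → ∃ g, U' = U.map (ρ g))
    (U : Submodule (ZMod p) V) (hU : U ≠ ⊥) (hinv : ∀ g, ∀ u ∈ U, ρ g u ∈ U) : U = ⊤ := by
  obtain ⟨u, huU, hu0⟩ := Submodule.exists_mem_ne_zero_of_ne_bot hU
  rw [eq_top_iff]
  intro v _
  by_cases hv : v = 0
  · rw [hv]; exact U.zero_mem
  obtain ⟨g, hg⟩ := hT1 (Submodule.span (ZMod p) {u}) (Submodule.span (ZMod p) {v})
    (finrank_span_singleton hu0) (finrank_span_singleton hv)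
  have h1 : v ∈ (Submodule.span (ZMod p) {u}).map (ρ g) := by
    rw [← hg]
    exact Submodule.mem_span_singleton_self v
  obtain ⟨w, hw, rfl⟩ := h1
  apply hinv
  exact (Submodule.span_singleton_le_iff_mem u U).mpr huU hw

/-- The fixed space of a normal subgroup is invariant. -/
def fixSpace (ρ : L →* Module.End (ZMod p) V) (R : Subgroup L) : Submodule (ZMod p) V where
  carrier := {v | ∀ r ∈ R, ρ r v = v}
  add_mem' := fun {x y} hx hy r hr => by rw [map_add, hx r hr, hy r hr]
  zero_mem' := fun r _ => map_zero _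
  smul_mem' := fun c x hx r hr => by rw [map_smul, hx r hr]

omit [Finite L] [Finite V] in
theorem fixSpace_inv (R : Subgroup L) (hR : R.Normal) (g : L) (u : V) (hu : u ∈ fixSpace ρ R) :
    ρ g u ∈ fixSpace ρ R := by
  intro r hr
  have h1 : r * g = g * (g⁻¹ * r * g) := by group
  rw [← Module.End.mul_apply, ← map_mul, h1, map_mul, Module.End.mul_apply]
  have h2 : g⁻¹ * r * g ∈ R := by
    have := hR.conj_mem r hr g⁻¹
    rwa [inv_inv] at this
  rw [hu _ h2]

/-- A nontrivial normal subgroup has no nonzero fixed vector. -/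
theorem fixSpace_eq_bot (hρ : Function.Injective ρ) (hT1 : ∀ U U' : Submodule (ZMod p) V, finrank (ZMod p) U = 1 →
      finrank (ZMod p) U' = 1 → ∃ g, U' = U.map (ρ g)) (R : Subgroup L) (hR : R.Normal) (hne : R ≠ ⊥) :
    fixSpace ρ R = ⊥ := by
  by_contra h
  have h1 := irr_of_trans hT1 (fixSpace ρ R) h (fun g u hu => fixSpace_inv R hR g u hu)
  apply hne
  rw [eq_bot_iff]
  intro r hr
  rw [Subgroup.mem_bot]
  apply hρ
  rw [map_one]
  ext v
  have : v ∈ fixSpace ρ R := by rw [h1]; trivial
  exact this r hr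

theorem pCore_eq_bot_of_trans [Nontrivial V] (hρ : Function.Injective ρ)
    (hT1 : ∀ U U' : Submodule (ZMod p) V, finrank (ZMod p) U = 1 →
      finrank (ZMod p) U' = 1 → ∃ g, U' = U.map (ρ g)) : pCore p L = ⊥ := by
  by_contra hne
  have h1 := fixSpace_eq_bot hρ hT1 (pCore p L) inferInstance hne
  obtain ⟨v, hv, hfix⟩ := exists_fixed (isPGroup_pCore (G := L) p) (ρ.comp (pCore p L).subtype)
    inferInstance
  have : v ∈ fixSpace ρ (pCore p L) := fun r hr => hfix ⟨r, hr⟩
  rw [h1] at this
  exact hv ((Submodule.mem_bot _).mp this)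

/-- An element of order `s` in an abelian normal `s`-subgroup. -/
theorem exists_abelian_normal_elt [Group.IsSolvable L] {s : ℕ} [hs : Fact s.Prime] (hO : pCore s L ≠ ⊥) :
    ∃ A : Subgroup L, A.Normal ∧ A ≠ ⊥ ∧ IsPGroup s A ∧ (∀ a ∈ A, ∀ b ∈ A, a * b = b * a) ∧
      ∃ u ∈ A, orderOf u = s := by
  obtain ⟨A, hAn, hAne, hAle, hAab⟩ := exists_abelian_normal_le (pCore s L) inferInstance hO
  have hAp : IsPGroup s A := (isPGroup_pCore s).to_le hAle
  refine ⟨A, hAn, hAne, hAp, ?_, ?_⟩
  · intro a ha b hb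
    have : ⁅a, b⁆ ∈ ⁅A, A⁆ := Subgroup.commutator_mem_commutator ha hb
    rw [hAab] at this
    exact commutatorElement_eq_one_iff_mul_comm.mp this
  · haveI : Nontrivial A := (Subgroup.bot_or_nontrivial A).resolve_left hAne
    obtain ⟨x, hx⟩ := exists_prime_orderOf_dvd_card' (G := A) s
      (by
        obtain ⟨k, hk⟩ := IsPGroup.iff_card.mp hAp
        rw [hk]
        apply dvd_pow_self
        rintro rfl
        rw [pow_zero] at hk
        exact Finite.one_lt_card.ne' hk)
    exact ⟨x, x.2, by rwa [Subgroup.orderOf_coe]⟩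

/-- **Branch (a)**: no large primitive prime divisor of `p^(n-1) - 1`. -/
theorem no_big_prim [Group.IsSolvable L] [Nontrivial V] {n s : ℕ} [hs : Fact s.Prime]
    (hn : finrank (ZMod p) V = n) (h3 : 3 ≤ n) (hρ : Function.Injective ρ)
    (hT1 : ∀ U U' : Submodule (ZMod p) V, finrank (ZMod p) U = 1 →
      finrank (ZMod p) U' = 1 → ∃ g, U' = U.map (ρ g))
    (h : Prim p (n - 1) s) (hsn : n + 2 ≤ s) (y : L) (hy : orderOf y = s) : False := by
  classical
  haveI : FiniteDimensional (ZMod p) V := Module.Finite.of_finite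
  have hO := pCore_ne_bot ρ hρ (pCore_eq_bot_of_trans hρ hT1) (h.ne (by omega)) y hy (by omega)
  obtain ⟨A, hAn, hAne, hAp, hAab, u, huA, hu⟩ := exists_abelian_normal_elt (L := L) hO
  set T := ρ u with hTdef
  have hTs : T ^ s = 1 := by
    rw [hTdef, ← map_pow, ← hu, pow_orderOf_eq_one, map_one]
  have hT1' : T ≠ 1 := by
    intro h1
    have : u = 1 := hρ (by rw [← hTdef, h1, map_one])
    rw [this, orderOf_one] at hu
    exact hs.out.one_lt.ne hu
  have hdvd := fix_dim h (by omega) T hTs
  rw [hn] at hdvd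
  have hne : LinearMap.ker (T - 1) ≠ ⊤ := by
    intro h0
    apply hT1'
    rw [LinearMap.ker_eq_top] at h0
    exact sub_eq_zero.mp h0
  have hlt := Submodule.finrank_lt hne
  rw [hn] at hlt
  have hc1 : finrank (ZMod p) (LinearMap.ker (T - 1)) = 1 := by
    obtain ⟨k, hk⟩ := hdvd
    have hk0 : k ≠ 0 := by
      rintro rfl
      omega
    have hk1 : k = 1 := by
      by_contra hne
      have : 2 ≤ k := by omega
      have h5 : (n - 1) * 2 ≤ (n - 1) * k := Nat.mul_le_mul_left _ this
      omega
    subst hk1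
    omega
  obtain ⟨v₀, hv₀, hspan⟩ := finrank_eq_one_iff'.mp hc1
  have hv₀' : (v₀ : V) ≠ 0 := fun h0 => hv₀ (Subtype.ext h0)
  have hv₀T : T (v₀ : V) = v₀ := by
    have := v₀.2
    rwa [LinearMap.mem_ker, LinearMap.sub_apply, Module.End.one_apply, sub_eq_zero] at this
  have hfix : (v₀ : V) ∈ fixSpace ρ A := by
    intro e he
    have hev : ρ e (v₀ : V) ∈ LinearMap.ker (T - 1) := by
      rw [LinearMap.mem_ker, LinearMap.sub_apply, Module.End.one_apply, sub_eq_zero]
      have h7 : T * ρ e = ρ e * T := by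
        rw [hTdef, ← map_mul, ← map_mul, hAab u huA e he]
      rw [← Module.End.mul_apply, h7, Module.End.mul_apply, hv₀T]
    obtain ⟨c, hc⟩ := hspan ⟨_, hev⟩
    have hc' : c • (v₀ : V) = ρ e v₀ := congrArg Subtype.val hc
    have hpow : ∀ m : ℕ, ρ (e ^ m) (v₀ : V) = c ^ m • (v₀ : V) := by
      intro m
      induction m with
      | zero => simp
      | succ m ih =>
        rw [pow_succ, map_mul, Module.End.mul_apply, ← hc', map_smul, ih, smul_smul, pow_succ, mul_comm]
    obtain ⟨k, hk⟩ := hAp ⟨e, he⟩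
    have hek : e ^ s ^ k = 1 := by
      have := congrArg Subtype.val hk
      simpa using this
    have h1 : c ^ s ^ k = 1 := by
      have h2 := hpow (s ^ k)
      rw [hek, map_one, Module.End.one_apply] at h2
      have h3 : (c ^ s ^ k - 1) • (v₀ : V) = 0 := by rw [sub_smul, ← h2, one_smul, sub_self]
      rcases smul_eq_zero.mp h3 with h4 | h4
      · exact sub_eq_zero.mp h4
      · exact absurd h4 hv₀'
    have hc0 : c ≠ 0 := by
      rintro rfl
      rw [zero_pow (pow_ne_zero _ hs.out.ne_zero)] at h1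
      exact zero_ne_one h1
    have h2 : c ^ (p - 1) = 1 := ZMod.pow_card_sub_one_eq_one hc0
    have h3 := Nat.dvd_gcd (orderOf_dvd_of_pow_eq_one h1) (orderOf_dvd_of_pow_eq_one h2)
    have hcop : Nat.Coprime (s ^ k) (p - 1) := by
      apply Nat.Coprime.pow_left
      rw [Nat.Prime.coprime_iff_not_dvd hs.out]
      have := h.not_dvd 1 one_pos (by omega)
      rwa [pow_one] at this
    rw [hcop] at h3
    have h4 : c = 1 := orderOf_eq_one_iff.mp (Nat.dvd_one.mp h3)
    rw [← hc', h4, one_smul]
  have hbot := fixSpace_eq_bot hρ hT1 A hAn hAne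
  rw [hbot] at hfix
  exact hv₀' ((Submodule.mem_bot _).mp hfix)

end main

end Cfsg.Agent.Lib.LinTrans
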