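import Mathlib
import Cfsg.Agent.Lib.LinTrans2
import Cfsg.Agent.Lib.Zsig
import Cfsg.Agent.Lib.ElusiveCount

/-!
# Solvable linear groups transitive on the points and the lines: the semilinear structure
-/

set_option autoImplicit false
set_option linter.style.haveILetI false
set_option linter.unusedSectionVars false

open Module Cfsg Cfsg.Agent.Lib.PCore

namespace Cfsg.Agent.Lib.LinTrans

variable {p : ℕ} [hp : Fact p.Prime] {V : Type*} [AddCommGroup V] [Module (ZMod p) V] [Finite V]
variable {L : Type*} [Group L] [Finite L] {ρ : L →* Module.End (ZMod p) V}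

/-- The semilinear structure from a primitive prime divisor of `p^n - 1`. -/
theorem gamma_struct [Group.IsSolvable L] [hVn : Nontrivial V] {n r : ℕ} [hr : Fact r.Prime]
    (hn : finrank (ZMod p) V = n) (h3 : 3 ≤ n) (hρ : Function.Injective ρ)
    (hT1 : ∀ U U' : Submodule (ZMod p) V, finrank (ZMod p) U = 1 →
      finrank (ZMod p) U' = 1 → ∃ g, U' = U.map (ρ g))
    (h : Prim p n r) (hrn : n + 2 ≤ r) (y : L) (hy : orderOf y = r) :
    ∃ (Φ : L →* RingAut (GaloisField p n)) (e : V ≃+ GaloisField p n) (u : L), orderOf u = r ∧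
      Φ u = 1 ∧ ∀ g v, e (ρ g v) = e (ρ g (e.symm 1)) * Φ g (e v) := by
  classical
  have hO := pCore_ne_bot ρ hρ (pCore_eq_bot_of_trans hρ hT1) (h.ne (by omega)) y hy (by omega)
  obtain ⟨A, hAn, hAne, hAp, hAab, u, huA, hu⟩ := exists_abelian_normal_elt (L := L) hO
  have hu1 : u ≠ 1 := by
    rintro rfl
    rw [orderOf_one] at hu
    exact hr.out.one_lt.ne hu
  have hupow : u ^ r = 1 := by rw [← hu]; exact pow_orderOf_eq_one u
  let T : Module.End (ZMod p) V := ρ u
  have hTr : T ^ r = 1 := by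
    show (ρ u) ^ r = 1
    rw [← map_pow, hupow, map_one]
  have hT1' : T ≠ 1 := by
    intro h1
    exact hu1 (hρ (by rw [map_one]; exact h1))
  obtain ⟨i, e, hie, hcomm⟩ := field_package hn (by omega) h T hTr hT1'
  haveI : Nontrivial (Module.End (ZMod p) V) := by
    obtain ⟨x, hx⟩ := exists_ne (0 : V)
    refine ⟨⟨1, 0, fun h0 => hx ?_⟩⟩
    have := congrArg (fun f : Module.End (ZMod p) V => f x) h0
    simpa using this
  have hi : Function.Injective i := i.injective
  have hicomm : ∀ a b, i a * i b = i b * i a := fun a b => by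
    rw [← map_mul, ← map_mul, mul_comm]
  obtain ⟨η, hη⟩ := hcomm T rfl
  have hρg : ∀ g : L, ρ g * ρ g⁻¹ = 1 := fun g => by rw [← map_mul, mul_inv_cancel, map_one]
  have hρg' : ∀ g : L, ρ g⁻¹ * ρ g = 1 := fun g => by rw [← map_mul, inv_mul_cancel, map_one]
  have hηr : η ^ r = 1 := by
    apply hi
    rw [map_pow, ← hη, hTr, map_one]
  -- conjugation preserves the field
  have hconj : ∀ (g : L) (a : GaloisField p n), ∃ a', ρ g * i a * ρ g⁻¹ = i a' := by
    intro g a
    let u' := g * u * g⁻¹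
    have hu'A : u' ∈ A := hAn.conj_mem u huA g
    have hT'c : ρ u' * T = T * ρ u' := by
      show ρ u' * ρ u = ρ u * ρ u'
      rw [← map_mul, ← map_mul, hAab _ hu'A _ huA]
    obtain ⟨η', hη'⟩ := hcomm (ρ u') hT'c
    have hu'pow : u' ^ r = 1 := by
      show (g * u * g⁻¹) ^ r = 1
      rw [conj_pow, hupow]
      group
    have hη'r : η' ^ r = 1 := by
      apply hi
      rw [map_pow, ← hη', ← map_pow, hu'pow, map_one, map_one]
    have hη'1 : η' ≠ 1 := by
      rintro rfl
      rw [map_one] at hη'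
      have hu'1 : u' = 1 := hρ (by rw [map_one]; exact hη')
      apply hu1
      have : u = g⁻¹ * u' * g := by simp [u']; group
      rw [this, hu'1]; group
    haveI : NeZero r := ⟨hr.out.ne_zero⟩
    have hprim : IsPrimitiveRoot η' r := by
      have := IsPrimitiveRoot.orderOf η'
      rwa [orderOf_eq_prime hη'r hη'1] at this
    obtain ⟨l, -, hl⟩ := hprim.eq_pow_of_pow_eq_one hηr
    have hTl : T = (ρ u') ^ l := by
      rw [hη, ← hl, map_pow, hη']
    let b := ρ g * i a * ρ g⁻¹
    have hbT' : Commute b (ρ u') := by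
      show b * ρ u' = ρ u' * b
      have h1 : ρ u' = ρ g * T * ρ g⁻¹ := by
        show ρ (g * u * g⁻¹) = ρ g * ρ u * ρ g⁻¹
        rw [map_mul, map_mul]
      have h2 : i a * T = T * i a := by rw [hη]; exact hicomm a η
      rw [h1]
      show (ρ g * i a * ρ g⁻¹) * (ρ g * T * ρ g⁻¹) = (ρ g * T * ρ g⁻¹) * (ρ g * i a * ρ g⁻¹)
      calc (ρ g * i a * ρ g⁻¹) * (ρ g * T * ρ g⁻¹)
          = ρ g * i a * (ρ g⁻¹ * ρ g) * T * ρ g⁻¹ := by noncomm_ring
        _ = ρ g * (i a * T) * ρ g⁻¹ := by rw [hρg', mul_one]; noncomm_ring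
        _ = ρ g * (T * i a) * ρ g⁻¹ := by rw [h2]
        _ = ρ g * T * (ρ g⁻¹ * ρ g) * i a * ρ g⁻¹ := by rw [hρg', mul_one]; noncomm_ring
        _ = (ρ g * T * ρ g⁻¹) * (ρ g * i a * ρ g⁻¹) := by noncomm_ring
    have hbT : b * T = T * b := by
      rw [hTl]
      exact (hbT'.pow_right l)
    exact hcomm b hbT
  choose φ hφ using hconj
  have hφadd : ∀ g a b, φ g (a + b) = φ g a + φ g b := by
    intro g a b
    apply hi
    rw [map_add, ← hφ, ← hφ, ← hφ, map_add]
    noncomm_ring
  have hφmul : ∀ g a b, φ g (a * b) = φ g a * φ g b := by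
    intro g a b
    apply hi
    rw [map_mul, ← hφ, ← hφ, ← hφ, map_mul]
    calc ρ g * (i a * i b) * ρ g⁻¹ = ρ g * i a * 1 * i b * ρ g⁻¹ := by noncomm_ring
      _ = ρ g * i a * (ρ g⁻¹ * ρ g) * i b * ρ g⁻¹ := by rw [hρg']
      _ = _ := by noncomm_ring
  have hφcomp : ∀ g h a, φ (g * h) a = φ g (φ h a) := by
    intro g h a
    apply hi
    rw [← hφ, ← hφ, ← hφ, mul_inv_rev, map_mul, map_mul]
    noncomm_ring
  have hφone : ∀ a, φ 1 a = a := by
    intro a
    apply hi
    rw [← hφ, inv_one, map_one, one_mul, mul_one]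
  let Φ : L →* RingAut (GaloisField p n) :=
    { toFun := fun g =>
        { toFun := φ g
          invFun := φ g⁻¹
          left_inv := fun a => by rw [← hφcomp, inv_mul_cancel, hφone]
          right_inv := fun a => by rw [← hφcomp, mul_inv_cancel, hφone]
          map_mul' := hφmul g
          map_add' := hφadd g }
      map_one' := by
        ext a
        exact hφone a
      map_mul' := fun g h => by
        ext a
        exact hφcomp g h a }
  have hΦ : ∀ g a, Φ g a = φ g a := fun _ _ => rfl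
  refine ⟨Φ, e, u, hu, ?_, ?_⟩
  · ext a
    apply hi
    show i (Φ u a) = i a
    rw [hΦ, ← hφ]
    have h2 : i a * ρ u = ρ u * i a := by
      have : ρ u = i η := hη
      rw [this]; exact hicomm a η
    rw [← h2, mul_assoc, hρg, mul_one]
  · intro g v
    set v₀ := e.symm 1 with hv₀
    have hev₀ : e v₀ = 1 := e.apply_symm_apply 1
    have hv : i (e v) v₀ = v := by
      apply e.injective
      rw [hie, hev₀, mul_one]
    have h1 : ρ g v = i (φ g (e v)) (ρ g v₀) := by
      rw [← hφ, Module.End.mul_apply, Module.End.mul_apply, ← Module.End.mul_apply (ρ g⁻¹),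
        hρg', Module.End.one_apply, hv]
    rw [h1, hie, hΦ, mul_comm]

/-- Lines and automorphisms bound the planes. -/
theorem planes_le {n : ℕ} (hT2 : ∀ U U' : Submodule (ZMod p) V, finrank (ZMod p) U = 2 →
      finrank (ZMod p) U' = 2 → ∃ g, U' = U.map (ρ g))
    (Φ : L →* RingAut (GaloisField p n)) (e : V ≃+ GaloisField p n)
    (hform : ∀ g v, e (ρ g v) = e (ρ g (e.symm 1)) * Φ g (e v)) (hex : ∃ W : Submodule (ZMod p) V, finrank (ZMod p) W = 2)
    [Finite (GaloisField p n)] :
    Nat.card {W : Submodule (ZMod p) V // finrank (ZMod p) W = 2} ≤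
      Nat.card {W : Submodule (ZMod p) V // finrank (ZMod p) W = 1} * Nat.card (RingAut (GaloisField p n)) := by
  classical
  obtain ⟨W₀, hW₀⟩ := hex
  haveI : Finite (Submodule (ZMod p) V) := Finite.of_injective _ SetLike.coe_injective
  haveI : Finite (RingAut (GaloisField p n)) :=
    Finite.of_injective (fun f : GaloisField p n ≃+* GaloisField p n => (f : GaloisField p n → GaloisField p n))
      DFunLike.coe_injective
  set v₀ := e.symm 1 with hv₀
  have hv₀0 : v₀ ≠ 0 := by
    intro h0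
    have := e.apply_symm_apply 1
    rw [← hv₀, h0, map_zero] at this
    exact zero_ne_one this
  choose g hg using fun W : {W : Submodule (ZMod p) V // finrank (ZMod p) W = 2} => hT2 W₀ W.1 hW₀ W.2
  have hne : ∀ g' : L, ρ g' v₀ ≠ 0 := fun g' h0 => hv₀0 (by
    apply rho_injective ρ g'
    rw [h0, map_zero])
  let f : {W : Submodule (ZMod p) V // finrank (ZMod p) W = 2} →
      {W : Submodule (ZMod p) V // finrank (ZMod p) W = 1} × RingAut (GaloisField p n) := fun W =>
    (⟨Submodule.span (ZMod p) {ρ (g W) v₀}, finrank_span_singleton (hne _)⟩, Φ (g W))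
  have hle : ∀ W W', f W = f W' → W.1 ≤ W'.1 := by
    intro W W' hff
    have h1 : Submodule.span (ZMod p) {ρ (g W) v₀} = Submodule.span (ZMod p) {ρ (g W') v₀} :=
      congrArg (fun x => x.1.1) hff
    have h2 : Φ (g W) = Φ (g W') := congrArg (fun x => x.2) hff
    have h3 : ρ (g W) v₀ ∈ Submodule.span (ZMod p) {ρ (g W') v₀} := by
      rw [← h1]; exact Submodule.mem_span_singleton_self _
    obtain ⟨c, hc⟩ := Submodule.mem_span_singleton.mp h3
    intro x hx
    rw [hg W] at hx
    obtain ⟨w, hw, rfl⟩ := hx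
    show ρ (g W) w ∈ W'.1
    rw [hg W']
    refine ⟨c • w, W₀.smul_mem c hw, ?_⟩
    apply e.injective
    obtain ⟨m, rfl⟩ := ZMod.natCast_zmod_surjective c
    rw [hform (g W), ← hc, map_smul, Nat.cast_smul_eq_nsmul, Nat.cast_smul_eq_nsmul, map_nsmul,
      map_nsmul, hform (g W'), h2, nsmul_eq_mul, nsmul_eq_mul, mul_assoc]
  have hinj : Function.Injective f := fun W W' hff =>
    Subtype.ext (le_antisymm (hle W W' hff) (hle W' W hff.symm))
  have := Nat.card_le_card_of_injective f hinj
  rwa [Nat.card_prod] at this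


omit [Module (ZMod p) V] [Finite V] [AddCommGroup V] [Finite L] [Group L] in
theorem finite_galois {n : ℕ} (hn : n ≠ 0) : Finite (GaloisField p n) :=
  Nat.finite_of_card_ne_zero (by
    rw [GaloisField.card p n hn]; exact (pow_pos hp.out.pos _).ne')

omit [Module (ZMod p) V] [Finite V] [AddCommGroup V] [Finite L] [Group L] in
theorem card_ringAut {n : ℕ} (hn : n ≠ 0) : Nat.card (RingAut (GaloisField p n)) = n := by
  haveI := finite_galois (p := p) hn
  have h1 : Nat.card (GaloisField p n ≃ₐ[ZMod p] GaloisField p n) = n := by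
    rw [IsGalois.card_aut_eq_finrank, GaloisField.finrank p hn]
  refine Eq.trans ?_ h1
  have hcomm : ∀ (σ : GaloisField p n ≃+* GaloisField p n) (r : ZMod p),
      σ (algebraMap (ZMod p) (GaloisField p n) r) = algebraMap (ZMod p) (GaloisField p n) r := by
    intro σ r
    obtain ⟨m, rfl⟩ := ZMod.natCast_zmod_surjective r
    simp
  exact Nat.card_congr
    { toFun := fun σ => AlgEquiv.ofRingEquiv (f := σ) (hcomm σ)
      invFun := fun σ => σ.toRingEquiv
      left_inv := fun σ => by ext; rfl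
      right_inv := fun σ => by ext; rfl }

/-- **The main theorem on solvable groups transitive on points and lines.** -/
theorem main [Group.IsSolvable L] {n : ℕ} (hn : finrank (ZMod p) V = n) (h3 : 3 ≤ n)
    (hρ : Function.Injective ρ)
    (hT1 : ∀ U U' : Submodule (ZMod p) V, finrank (ZMod p) U = 1 →
      finrank (ZMod p) U' = 1 → ∃ g, U' = U.map (ρ g))
    (hT2 : ∀ U U' : Submodule (ZMod p) V, finrank (ZMod p) U = 2 →
      finrank (ZMod p) U' = 2 → ∃ g, U' = U.map (ρ g)) :
    (n = 3 ∨ (n = 5 ∧ p = 2)) ∧ ∃ e : V ≃+ GaloisField p n,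
      (∀ g, ∃ c, c ≠ 0 ∧ ∃ φ : GaloisField p n ≃+* GaloisField p n, ∀ v, e (ρ g v) = c * φ (e v)) ∧
      (n = 5 → p = 2 → Nat.card L = 155) ∧
      (n = 3 → p = 2 → (Nat.card L = 21 ∨
        (Nat.card L = 7 ∧ ∀ g, ∃ c, c ≠ 0 ∧ ∀ v, e (ρ g v) = c * e v))) := by
  classical
  haveI : FiniteDimensional (ZMod p) V := Module.Finite.of_finite
  haveI hVn : Nontrivial V := Module.nontrivial_of_finrank_pos (R := ZMod p) (by omega)
  have hp2 : 2 ≤ p := hp.out.two_le
  haveI : Finite (Submodule (ZMod p) V) := Finite.of_injective _ SetLike.coe_injective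
  set ℓ := Nat.card {W : Submodule (ZMod p) V // finrank (ZMod p) W = 1} with hℓdef
  set π := Nat.card {W : Submodule (ZMod p) V // finrank (ZMod p) W = 2} with hπdef
  have hℓ : ℓ * (p - 1) = p ^ n - 1 := by
    have := Cfsg.Agent.Lib.ElusiveCount.card_subspaces_mul (F := ZMod p) (V := V) hn (m := 1) (by omega)
    simpa [Cfsg.Agent.Lib.ElusiveCount.BB, ZMod.card, Finset.prod_range_succ] using this
  have hπ : π * ((p ^ 2 - 1) * (p - 1)) = (p ^ n - 1) * (p ^ (n - 1) - 1) := by
    have := Cfsg.Agent.Lib.ElusiveCount.card_subspaces_mul (F := ZMod p) (V := V) hn (m := 2) (by omega)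
    simpa [Cfsg.Agent.Lib.ElusiveCount.BB, ZMod.card, Finset.prod_range_succ] using this
  have hpow : ∀ k : ℕ, 0 < k → 0 < p ^ k - 1 := by
    intro k hk
    have : 2 ^ k ≤ p ^ k := Nat.pow_le_pow_left hp2 k
    have h2 : 2 ≤ 2 ^ k := by
      calc 2 = 2 ^ 1 := rfl
        _ ≤ 2 ^ k := Nat.pow_le_pow_right (by omega) hk
    omega
  have hℓ0 : ℓ ≠ 0 := by
    intro h0
    rw [h0, zero_mul] at hℓ
    have := hpow n (by omega)
    omega
  have hπ0 : π ≠ 0 := by
    intro h0
    rw [h0, zero_mul] at hπ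
    exact (Nat.mul_pos (hpow n (by omega)) (hpow (n - 1) (by omega))).ne hπ
  have ex1 : ∃ W : Submodule (ZMod p) V, finrank (ZMod p) W = 1 := by
    obtain ⟨⟨W, hW⟩, -⟩ := (Nat.card_ne_zero.mp hℓ0)
    exact ⟨W, hW⟩
  have ex2 : ∃ W : Submodule (ZMod p) V, finrank (ZMod p) W = 2 := by
    obtain ⟨⟨W, hW⟩, -⟩ := (Nat.card_ne_zero.mp hπ0)
    exact ⟨W, hW⟩
  have hℓd : ℓ ∣ Nat.card L := card_dvd ρ 1 ex1 hT1
  have hπd : π ∣ Nat.card L := card_dvd ρ 2 ex2 hT2
  -- `n` is `3` or a prime
  have hnprime : n = 3 ∨ (5 ≤ n ∧ n.Prime) := by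
    by_cases hn3 : n = 3
    · exact Or.inl hn3
    right
    have hP : n.Prime := by
      by_cases hex : p = 2 ∧ n - 1 = 6
      · have h7 : n = 7 := by omega
        rw [h7]
        norm_num
      · obtain ⟨s, hsP, hsd, hsn⟩ := Cfsg.Agent.Lib.Zsig.zsigmondy p (n - 1) hp.out.one_lt (by omega) hex
          (by rintro ⟨h, _⟩; omega)
        haveI : Fact s.Prime := ⟨hsP⟩
        have hPrim : Prim p (n - 1) s := ⟨hsP, hsd, hsn⟩
        have h1 : s ∣ π := by
          have h2 : s ∣ π * ((p ^ 2 - 1) * (p - 1)) := by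
            rw [hπ]
            exact dvd_mul_of_dvd_right hsd _
          rcases (Nat.Prime.dvd_mul hsP).mp h2 with h | h
          · exact h
          rcases (Nat.Prime.dvd_mul hsP).mp h with h | h
          · exact absurd h (hsn 2 (by omega) (by omega))
          · exact absurd (by rwa [pow_one]) (hsn 1 (by omega) (by omega))
        obtain ⟨y, hy⟩ := exists_prime_orderOf_dvd_card' s (h1.trans hπd)
        by_cases hbig : n + 2 ≤ s
        · exact (no_big_prim hn h3 hρ hT1 hPrim hbig y hy).elim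
        · have hd := hPrim.dvd_sub_one (by omega)
          obtain ⟨k, hk⟩ := hd
          have hs1 := hsP.one_lt
          have hk0 : k ≠ 0 := by
            rintro rfl
            omega
          have hk1 : k = 1 := by
            by_contra hne
            have h2k : 2 ≤ k := by omega
            have h5 : (n - 1) * 2 ≤ (n - 1) * k := Nat.mul_le_mul_left _ h2k
            omega
          subst hk1
          have hsn' : s = n := by omega
          rw [← hsn']
          exact hsP
    refine ⟨?_, hP⟩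
    by_contra hlt
    have hn4 : n = 4 := by omega
    rw [hn4] at hP
    norm_num at hP
  have hodd : n % 2 = 1 := by
    rcases hnprime with h | ⟨h5, hP⟩
    · rw [h]
    · rcases hP.eq_two_or_odd with h | h
      · omega
      · exact h
  obtain ⟨r, hrP, hrd, hrn⟩ := Cfsg.Agent.Lib.Zsig.zsigmondy p n hp.out.one_lt (by omega)
    (by rintro ⟨-, h⟩; omega) (by rintro ⟨h, _⟩; omega)
  haveI : Fact r.Prime := ⟨hrP⟩
  have hPrim : Prim p n r := ⟨hrP, hrd, hrn⟩
  have hr1 : ¬ r ∣ p - 1 := by
    have := hrn 1 one_pos (by omega)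
    rwa [pow_one] at this
  have hrℓ : r ∣ ℓ := by
    have h2 : r ∣ ℓ * (p - 1) := by rw [hℓ]; exact hrd
    rcases (Nat.Prime.dvd_mul hrP).mp h2 with h | h
    · exact h
    · exact absurd h hr1
  obtain ⟨y, hy⟩ := exists_prime_orderOf_dvd_card' r (hrℓ.trans hℓd)
  have hrbig : n + 2 ≤ r := by
    have hr2 : r ≠ 2 := by
      rintro rfl
      rcases hp.out.eq_two_or_odd with h | h
      · rw [h] at hrd
        have h2 : 2 ∣ 2 ^ n := dvd_pow_self _ (by omega)
        have h3' := (Nat.dvd_sub_iff_right (Nat.one_le_two_pow) h2).mp hrd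
        omega
      · apply hr1
        omega
    have hrodd : r % 2 = 1 := by
      rcases hrP.eq_two_or_odd with h | h
      · exact absurd h hr2
      · exact h
    obtain ⟨k, hk⟩ := hPrim.dvd_sub_one (by omega)
    have hk0 : k ≠ 0 := by
      rintro rfl
      have := hrP.one_lt
      omega
    have hk1 : k ≠ 1 := by
      rintro rfl
      omega
    have h2k : 2 ≤ k := by omega
    have h5 : n * 2 ≤ n * k := Nat.mul_le_mul_left _ h2k
    omega
  obtain ⟨Φ, e, u, hu, hΦu, hform⟩ := gamma_struct hn h3 hρ hT1 hPrim hrbig y hy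
  have hn0 : n ≠ 0 := by omega
  haveI := finite_galois (p := p) hn0
  have hAut := card_ringAut (p := p) hn0
  have hc0 : ∀ g : L, e (ρ g (e.symm 1)) ≠ 0 := by
    intro g h0
    have h1 : ρ g (e.symm 1) = 0 := e.injective (by rw [h0, map_zero])
    have h2 : e.symm 1 = 0 := rho_injective ρ g (by rw [h1, map_zero])
    have h4 := e.apply_symm_apply 1
    rw [h2, map_zero] at h4
    exact zero_ne_one h4
  have hfactor : Nat.card L = Nat.card Φ.ker * Nat.card Φ.range := by
    rw [← Subgroup.index_ker, Subgroup.card_mul_index]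
  have hker : Nat.card Φ.ker ≤ p ^ n - 1 := by
    let f : Φ.ker → (GaloisField p n)ˣ := fun g => Units.mk0 _ (hc0 g)
    have hf : Function.Injective f := by
      intro g g' hgg
      apply Subtype.ext
      apply hρ
      ext v
      apply e.injective
      have hg1 : Φ (g : L) = 1 := MonoidHom.mem_ker.mp g.2
      have hg2 : Φ (g' : L) = 1 := MonoidHom.mem_ker.mp g'.2
      have h1 : e (ρ (g : L) v) = e (ρ (g : L) (e.symm 1)) * e v := by
        rw [hform (g : L) v, hg1]; rfl
      have h2 : e (ρ (g' : L) v) = e (ρ (g' : L) (e.symm 1)) * e v := by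
        rw [hform (g' : L) v, hg2]; rfl
      have : e (ρ (g : L) (e.symm 1)) = e (ρ (g' : L) (e.symm 1)) := congrArg Units.val hgg
      rw [h1, h2, this]
    have := Nat.card_le_card_of_injective f hf
    rwa [Nat.card_units, GaloisField.card p n hn0] at this
  have hrange : Nat.card Φ.range ∣ n := by
    have := Subgroup.card_subgroup_dvd_card Φ.range
    rwa [hAut] at this
  have huker : u ∈ Φ.ker := MonoidHom.mem_ker.mpr hΦu
  have hrker : r ∣ Nat.card Φ.ker := by
    have := Subgroup.orderOf_dvd_natCard Φ.ker huker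
    rwa [hu] at this
  refine ⟨?_, e, ?_, ?_, ?_⟩
  · rcases hnprime with h | ⟨h5, hP⟩
    · exact Or.inl h
    right
    have hle := planes_le hT2 Φ e hform ex2
    rw [← hℓdef, ← hπdef, hAut] at hle
    have hid : π * (p ^ 2 - 1) = ℓ * (p ^ (n - 1) - 1) := by
      have hp1 : 0 < p - 1 := by omega
      apply Nat.eq_of_mul_eq_mul_right hp1
      rw [mul_assoc, hπ, ← hℓ]
      ring
    have hineq : p ^ (n - 1) - 1 ≤ n * (p ^ 2 - 1) := by
      have h1 : ℓ * (p ^ (n - 1) - 1) ≤ ℓ * (n * (p ^ 2 - 1)) := by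
        rw [← hid, ← mul_assoc]
        exact Nat.mul_le_mul_right _ hle
      exact Nat.le_of_mul_le_mul_left h1 (Nat.pos_of_ne_zero hℓ0)
    by_cases hn5 : n = 5
    · refine ⟨hn5, ?_⟩
      by_contra hp3
      have hp3' : 3 ≤ p := by omega
      subst hn5
      obtain ⟨Q, hQ⟩ : ∃ Q, p ^ 2 = Q + 1 := ⟨p ^ 2 - 1, by
        have : 1 ≤ p ^ 2 := Nat.one_le_pow _ _ (by omega)
        omega⟩
      have hQ8 : 8 ≤ Q := by
        have : 3 ^ 2 ≤ p ^ 2 := Nat.pow_le_pow_left hp3' 2
        omega
      have h4 : p ^ (5 - 1) = (Q + 1) * (Q + 1) := by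
        rw [← hQ]; ring
      rw [h4, hQ] at hineq
      have h6 : (Q + 1) * (Q + 1) - 1 = Q * Q + 2 * Q := by
        have : (Q + 1) * (Q + 1) = Q * Q + 2 * Q + 1 := by ring
        omega
      rw [h6, Nat.add_sub_cancel] at hineq
      nlinarith
    · exfalso
      obtain ⟨m, rfl⟩ : ∃ m, n = m + 7 := ⟨n - 7, by omega⟩
      have h2pow : m + 8 ≤ 2 ^ (m + 4) := by
        have := Nat.lt_two_pow_self (n := m)
        have h2 : 2 ^ (m + 4) = 16 * 2 ^ m := by ring
        omega
      have hpm : m + 8 ≤ p ^ (m + 4) := h2pow.trans (Nat.pow_le_pow_left hp2 _)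
      have h7 : p ^ (m + 7 - 1) = p ^ (m + 4) * p ^ 2 := by
        rw [← pow_add]
        congr 1
      rw [h7] at hineq
      have h8 : (m + 8) * p ^ 2 ≤ p ^ (m + 4) * p ^ 2 := Nat.mul_le_mul_right _ hpm
      have h9 : 4 ≤ p ^ 2 := by
        calc 4 = 2 ^ 2 := rfl
          _ ≤ p ^ 2 := Nat.pow_le_pow_left hp2 2
      obtain ⟨Q, hQ⟩ : ∃ Q, p ^ 2 = Q + 1 := ⟨p ^ 2 - 1, by omega⟩
      rw [hQ, Nat.add_sub_cancel] at hineq
      rw [hQ] at h8
      have h10 : (m + 8) * (Q + 1) = (m + 7) * Q + Q + m + 8 := by ring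
      omega
  · intro g
    exact ⟨_, hc0 g, (Φ g : GaloisField p n ≃+* GaloisField p n), fun v => hform g v⟩
  · intro hn5 hp2'
    subst hn5
    subst hp2'
    have hℓ31 : ℓ = 31 := by
      simpa using hℓ
    have hπ155 : π = 155 := by
      have h : π * 3 = 31 * 15 := by simpa using hπ
      omega
    have hcard0 : 0 < Nat.card L := Nat.card_pos
    have hle155 : Nat.card L ≤ 155 := by
      rw [hfactor]
      have h1 : Nat.card Φ.ker ≤ 31 := by simpa using hker
      have h2 : Nat.card Φ.range ≤ 5 := Nat.le_of_dvd (by omega) hrange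
      calc _ ≤ 31 * 5 := Nat.mul_le_mul h1 h2
        _ = 155 := rfl
    have hd : 155 ∣ Nat.card L := hπ155 ▸ hπd
    have := Nat.le_of_dvd hcard0 hd
    omega
  · intro hn3 hp2'
    subst hn3
    subst hp2'
    have hr7 : r = 7 := by
      have h1 : r ∣ 7 := by simpa using hrd
      have := (Nat.prime_dvd_prime_iff_eq hrP (by norm_num)).mp h1
      exact this
    subst hr7
    have hker7 : Nat.card Φ.ker = 7 := by
      have h1 : Nat.card Φ.ker ≤ 7 := by simpa using hker
      have h2 : 7 ≤ Nat.card Φ.ker := Nat.le_of_dvd Nat.card_pos hrker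
      omega
    have hr13 : Nat.card Φ.range = 1 ∨ Nat.card Φ.range = 3 :=
      (Nat.dvd_prime (by norm_num)).mp hrange
    rcases hr13 with h | h
    · right
      rw [hfactor, hker7, h]
      refine ⟨rfl, fun g => ⟨_, hc0 g, fun v => ?_⟩⟩
      have hg : Φ g = 1 := by
        have h1 : Φ.range = ⊥ := (Subgroup.card_eq_one).mp h
        have h2 : Φ g ∈ Φ.range := ⟨g, rfl⟩
        rw [h1] at h2
        exact h2
      rw [hform, hg]
      rfl
    · left
      rw [hfactor, hker7, h]

end Cfsg.Agent.Lib.LinTrans
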