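import Mathlib
import Cfsg.Prelude.Def_Perm
import Cfsg.Agent.Lib.LinTrans3

/-!
# Groups with a normal elementary abelian self-centralizing Sylow subgroup, transitive on
subgroups of equal order
-/

set_option autoImplicit false
set_option linter.style.haveILetI false
set_option linter.unusedSectionVars false

open Module Cfsg

namespace Cfsg.Agent.Lib.LinTrans

variable {p : ℕ} [hp : Fact p.Prime] {X : Type*} [Group X] {V : Type*} [AddCommGroup V]
  [Module (ZMod p) V]

/-- The conjugation action of `X` on its normal abelian subgroup, written additively. -/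
noncomputable def conjRep (p : ℕ) [hp : Fact p.Prime] {V : Type*} [AddCommGroup V]
    [Module (ZMod p) V] (A : Subgroup X) [hA : A.Normal] (ι : Multiplicative V ≃* A) :
    X →* Module.End (ZMod p) V where
  toFun x := AddMonoidHom.toZModLinearMap p
    { toFun := fun v => (ι.symm (MulAut.conjNormal x (ι (Multiplicative.ofAdd v)))).toAdd
      map_zero' := by
        have h : (Multiplicative.ofAdd (0 : V)) = 1 := rfl
        rw [h, map_one, map_one, map_one]
        rfl
      map_add' := fun v w => by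
        have h : (Multiplicative.ofAdd (v + w)) = Multiplicative.ofAdd v * Multiplicative.ofAdd w := rfl
        rw [h, map_mul, map_mul, map_mul]
        rfl }
  map_one' := by
    ext v
    simp
  map_mul' := fun x y => by
    ext v
    simp [map_mul, MulAut.mul_apply]

theorem conjRep_spec (A : Subgroup X) [hA : A.Normal] (ι : Multiplicative V ≃* A) (x : X) (v : V) :
    ((ι (Multiplicative.ofAdd (conjRep p A ι x v)) : A) : X) = x * (ι (Multiplicative.ofAdd v) : A) * x⁻¹ := by
  have h1 : conjRep p A ι x v = (ι.symm (MulAut.conjNormal x (ι (Multiplicative.ofAdd v)))).toAdd := rfl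
  rw [h1]
  simp

theorem conjRep_of_mem (A : Subgroup X) [hA : A.Normal] (ι : Multiplicative V ≃* A) (a : X) (ha : a ∈ A) :
    conjRep p A ι a = 1 := by
  ext v
  rw [Module.End.one_apply]
  apply Multiplicative.ofAdd.injective
  apply ι.injective
  apply Subtype.ext
  rw [conjRep_spec]
  obtain ⟨w, hw⟩ := ι.surjective ⟨a, ha⟩
  have ha' : a = (ι w : A) := by rw [hw]
  rw [ha']
  have hcomm : ι w * ι (Multiplicative.ofAdd v) = ι (Multiplicative.ofAdd v) * ι w := by
    rw [← map_mul, ← map_mul, mul_comm]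
  have := congrArg Subtype.val hcomm
  simp only [Subgroup.coe_mul] at this
  rw [this]
  group

/-- The subgroup of `X` corresponding to a submodule. -/
def toS (A : Subgroup X) (ι : Multiplicative V ≃* A) (U : Submodule (ZMod p) V) : Subgroup X where
  carrier := {x | ∃ v ∈ U, x = (ι (Multiplicative.ofAdd v) : A)}
  mul_mem' := by
    rintro _ _ ⟨v, hv, rfl⟩ ⟨w, hw, rfl⟩
    refine ⟨v + w, U.add_mem hv hw, ?_⟩
    have h : (Multiplicative.ofAdd (v + w)) = Multiplicative.ofAdd v * Multiplicative.ofAdd w := rfl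
    rw [h, map_mul]
    rfl
  one_mem' := ⟨0, U.zero_mem, by
    have h : (Multiplicative.ofAdd (0 : V)) = 1 := rfl
    rw [h, map_one]
    rfl⟩
  inv_mem' := by
    rintro _ ⟨v, hv, rfl⟩
    refine ⟨-v, U.neg_mem hv, ?_⟩
    have h : (Multiplicative.ofAdd (-v)) = (Multiplicative.ofAdd v)⁻¹ := rfl
    rw [h, map_inv]
    rfl

theorem card_toS (A : Subgroup X) (ι : Multiplicative V ≃* A) (U : Submodule (ZMod p) V) :
    Nat.card (toS A ι U) = Nat.card U := by
  symm
  refine Nat.card_congr (Equiv.ofBijective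
    (fun u : U => (⟨(ι (Multiplicative.ofAdd (u : V)) : A), (u : V), u.2, rfl⟩ : toS A ι U)) ⟨?_, ?_⟩)
  · intro u u' huu
    have := congrArg Subtype.val huu
    have h2 := ι.injective (Subtype.ext this)
    exact Subtype.ext (Multiplicative.ofAdd.injective h2)
  · rintro ⟨_, v, hv, rfl⟩
    exact ⟨⟨v, hv⟩, rfl⟩

theorem toS_le (A : Subgroup X) (ι : Multiplicative V ≃* A) (U : Submodule (ZMod p) V) : toS A ι U ≤ A := by
  rintro _ ⟨v, -, rfl⟩
  exact (ι _).2

/-- Conjugation of `toS`. -/
theorem eq_map_of_toS (A : Subgroup X) [hA : A.Normal] (ι : Multiplicative V ≃* A) (U U' : Submodule (ZMod p) V)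
    (x : X) (hx : toS A ι U' = (toS A ι U).map (MulAut.conj x).toMonoidHom) :
    U' = U.map (conjRep p A ι x) := by
  ext v'
  constructor
  · intro hv'
    have h1 : ((ι (Multiplicative.ofAdd v') : A) : X) ∈ toS A ι U' := ⟨v', hv', rfl⟩
    rw [hx] at h1
    obtain ⟨_, ⟨v, hv, rfl⟩, h2⟩ := h1
    refine ⟨v, hv, ?_⟩
    apply Multiplicative.ofAdd.injective
    apply ι.injective
    apply Subtype.ext
    rw [conjRep_spec]
    exact h2
  · rintro ⟨v, hv, rfl⟩
    have h1 : ((ι (Multiplicative.ofAdd (conjRep p A ι x v)) : A) : X) ∈ toS A ι U' := by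
      rw [hx, conjRep_spec]
      exact ⟨_, ⟨v, hv, rfl⟩, rfl⟩
    obtain ⟨w, hw, hw2⟩ := h1
    have h2 := ι.injective (Subtype.ext hw2)
    have h3 := Multiplicative.ofAdd.injective h2
    show conjRep p A ι x v ∈ U'
    rw [h3]
    exact hw


/-- The affine permutation representation. -/
theorem perm_rep {n : ℕ} [Finite X] [Finite V] (hXs : Group.IsSolvable X) (A : Subgroup X) [hA : A.Normal]
    (ι : Multiplicative V ≃* A) (hn : finrank (ZMod p) V = n) (h3 : 3 ≤ n)
    (hcent : ∀ x, (∀ a ∈ A, x * a = a * x) → x ∈ A) (hcop : (Nat.card A).Coprime A.index)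
    (hT : ∀ B B' : Subgroup X, B ≤ A → B' ≤ A → Nat.card B = Nat.card B' →
      ∃ x, B' = B.map (MulAut.conj x).toMonoidHom) :
    (n = 3 ∨ (n = 5 ∧ p = 2)) ∧
    ∃ (Ψ : X →* Equiv.Perm (GaloisField p n)) (d : ℕ), Function.Injective Ψ ∧
      (∀ x, Ψ x ∈ Cfsg.semiaffineGroup (GaloisField p n)) ∧ Nat.card X = p ^ n * d ∧
      (n = 5 → p = 2 → d = 155) ∧
      (n = 3 → p = 2 → d = 21 ∨ (d = 7 ∧ ∀ x, Ψ x ∈ Cfsg.affineGroup (GaloisField p n))) := by
  classical
  obtain ⟨H, hAH⟩ := Subgroup.exists_right_complement'_of_coprime hcop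
  haveI : Group.IsSolvable H := inferInstance
  let ρ₀ : X →* Module.End (ZMod p) V := conjRep p A ι
  let ρ : H →* Module.End (ZMod p) V := ρ₀.comp H.subtype
  have hdisj : ∀ x, x ∈ A → x ∈ H → x = 1 := fun x h1 h2 =>
    Subgroup.disjoint_def.mp hAH.disjoint h1 h2
  have hdec : ∀ x : X, ∃ a ∈ A, ∃ h ∈ H, x = a * h := by
    intro x
    obtain ⟨⟨a, h⟩, hah⟩ := hAH.2 x
    exact ⟨a, a.2, h, h.2, hah.symm⟩
  -- a trivial action means membership in `A`
  have hcent' : ∀ x : X, ρ₀ x = 1 → x ∈ A := by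
    intro x hx
    apply hcent
    intro a ha
    obtain ⟨w, hw⟩ := ι.surjective ⟨a, ha⟩
    have h1 := conjRep_spec (p := p) A ι x w.toAdd
    have h2 : ρ₀ x w.toAdd = w.toAdd := by rw [hx]; rfl
    have h3 : conjRep p A ι x w.toAdd = w.toAdd := h2
    rw [h3] at h1
    have h4 : ((ι w : A) : X) = a := by rw [hw]
    have h5 : a = x * a * x⁻¹ := by
      have h6 : Multiplicative.ofAdd w.toAdd = w := rfl
      rw [h6, h4] at h1
      exact h1
    rw [eq_mul_inv_iff_mul_eq] at h5
    exact h5.symm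
  have hρ : Function.Injective ρ := by
    rw [injective_iff_map_eq_one]
    intro h hh
    apply Subtype.ext
    exact hdisj _ (hcent' _ hh) h.2
  have hρdec : ∀ a ∈ A, ∀ h : X, ρ₀ (a * h) = ρ₀ h := by
    intro a ha h
    rw [map_mul, show ρ₀ a = 1 from conjRep_of_mem (p := p) A ι a ha, one_mul]
  have hTk : ∀ k, ∀ U U' : Submodule (ZMod p) V, finrank (ZMod p) U = k → finrank (ZMod p) U' = k →
      ∃ g, U' = U.map (ρ g) := by
    intro k U U' hU hU'
    obtain ⟨x, hx⟩ := hT (toS A ι U) (toS A ι U') (toS_le A ι U) (toS_le A ι U') (by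
      rw [card_toS, card_toS, card_eq_pow (p := p) U, card_eq_pow (p := p) U', hU, hU'])
    obtain ⟨a, ha, h, hh, rfl⟩ := hdec x
    refine ⟨⟨h, hh⟩, ?_⟩
    have := eq_map_of_toS A ι U U' _ hx
    rw [this]
    have h2 : conjRep p A ι (a * h) = ρ₀ h := hρdec a ha h
    rw [h2]
    rfl
  obtain ⟨hcase, e, hsemi, h55, h23⟩ := main (L := H) (ρ := ρ) hn h3 hρ (hTk 1) (hTk 2)
  refine ⟨hcase, ?_⟩
  let τ : GaloisField p n → X ⧸ H := fun w =>
    ((ι (Multiplicative.ofAdd (e.symm w)) : A) : X)
  have hτ : Function.Bijective τ := by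
    constructor
    · intro w w' hww
      have h1 := QuotientGroup.eq.mp hww
      have h2 : ((ι (Multiplicative.ofAdd (e.symm w)) : A) : X)⁻¹ *
          ((ι (Multiplicative.ofAdd (e.symm w')) : A) : X) ∈ A :=
        A.mul_mem (A.inv_mem (ι _).2) (ι _).2
      have h3 := hdisj _ h2 h1
      rw [inv_mul_eq_one] at h3
      have h4 := ι.injective (Subtype.ext h3)
      exact e.symm.injective (Multiplicative.ofAdd.injective h4)
    · intro q
      obtain ⟨x, rfl⟩ := QuotientGroup.mk_surjective q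
      obtain ⟨a, ha, h, hh, rfl⟩ := hdec x
      obtain ⟨u, hu⟩ := ι.surjective ⟨a, ha⟩
      refine ⟨e u.toAdd, ?_⟩
      show (((ι (Multiplicative.ofAdd (e.symm (e u.toAdd))) : A) : X) : X ⧸ H) = _
      rw [e.symm_apply_apply]
      have h1 : Multiplicative.ofAdd u.toAdd = u := rfl
      rw [h1, hu]
      apply QuotientGroup.eq.mpr
      show a⁻¹ * (a * h) ∈ H
      rwa [inv_mul_cancel_left]
  let τe : GaloisField p n ≃ X ⧸ H := Equiv.ofBijective τ hτ
  let Ψ : X →* Equiv.Perm (GaloisField p n) :=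
    (τe.symm.permCongrHom).toMonoidHom.comp (MulAction.toPermHom X (X ⧸ H))
  have hΨ : ∀ x w, τe (Ψ x w) = x • τe w := by
    intro x w
    show τe (τe.symm (x • τe w)) = _
    rw [Equiv.apply_symm_apply]
  have hform : ∀ (a : X) (ha : a ∈ A) (h : X) (hh : h ∈ H) (v : V),
      Ψ (a * h) (e v) = e ((ι.symm ⟨a, ha⟩).toAdd + ρ₀ h v) := by
    intro a ha h hh v
    apply τe.injective
    rw [hΨ]
    show (a * h) • (((ι (Multiplicative.ofAdd (e.symm (e v))) : A) : X) : X ⧸ H) =
      (((ι (Multiplicative.ofAdd (e.symm (e ((ι.symm ⟨a, ha⟩).toAdd + ρ₀ h v)))) : A) : X) : X ⧸ H)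
    rw [e.symm_apply_apply, e.symm_apply_apply]
    have h1 : Multiplicative.ofAdd ((ι.symm ⟨a, ha⟩).toAdd + ρ₀ h v) =
        ι.symm ⟨a, ha⟩ * Multiplicative.ofAdd (ρ₀ h v) := rfl
    rw [h1, map_mul, ι.apply_symm_apply]
    have h2 : ((ι (Multiplicative.ofAdd (ρ₀ h v)) : A) : X) = h * (ι (Multiplicative.ofAdd v) : A) * h⁻¹ :=
      conjRep_spec A ι h v
    rw [Subgroup.coe_mul, h2]
    apply Eq.symm
    apply QuotientGroup.eq.mpr
    have h3 : (a * (h * (ι (Multiplicative.ofAdd v) : A) * h⁻¹))⁻¹ * ((a * h) * ((ι (Multiplicative.ofAdd v) : A) : X)) =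
        h := by
      group
    show (a * (h * (ι (Multiplicative.ofAdd v) : A) * h⁻¹))⁻¹ * ((a * h) * ((ι (Multiplicative.ofAdd v) : A) : X)) ∈ H
    rw [h3]
    exact hh
  have hinj : Function.Injective Ψ := by
    rw [injective_iff_map_eq_one]
    intro x hx
    obtain ⟨a, ha, h, hh, rfl⟩ := hdec x
    have h1 : ∀ v, (ι.symm ⟨a, ha⟩).toAdd + ρ₀ h v = v := by
      intro v
      apply e.injective
      rw [← hform a ha h hh v, hx]
      rfl
    have h2 : (ι.symm ⟨a, ha⟩).toAdd = 0 := by
      have := h1 0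
      rwa [map_zero, add_zero] at this
    have ha1 : a = 1 := by
      have h3 : ι.symm ⟨a, ha⟩ = 1 := h2
      have h4 : (⟨a, ha⟩ : A) = 1 := by
        have := congrArg ι h3
        rwa [ι.apply_symm_apply, map_one] at this
      exact congrArg Subtype.val h4
    have h3 : ρ ⟨h, hh⟩ = 1 := by
      ext v
      have := h1 v
      rw [h2, zero_add] at this
      exact this
    have h4 : (⟨h, hh⟩ : H) = 1 := hρ (by rw [h3, map_one])
    have h5 : h = 1 := congrArg Subtype.val h4
    rw [ha1, h5, one_mul]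
  have hcardA : Nat.card A = p ^ n := by
    rw [← Nat.card_congr ι.toEquiv, Nat.card_congr Multiplicative.toAdd, card_eq_pow (p := p) V, hn]
  refine ⟨Ψ, Nat.card H, hinj, ?_, ?_, h55, ?_⟩
  · intro x
    obtain ⟨a, ha, h, hh, rfl⟩ := hdec x
    obtain ⟨c, hc0, φ, hφ⟩ := hsemi ⟨h, hh⟩
    refine ⟨Units.mk0 c hc0, e (ι.symm ⟨a, ha⟩).toAdd, φ, fun w => ?_⟩
    obtain ⟨v, rfl⟩ := e.surjective w
    rw [hform a ha h hh v, map_add, add_comm]
    congr 1
    exact hφ v
  · rw [← hcardA, hAH.card_mul_card]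
  · intro hn3 hp2
    rcases h23 hn3 hp2 with h | ⟨h7, h⟩
    · exact Or.inl h
    · refine Or.inr ⟨h7, fun x => ?_⟩
      obtain ⟨a, ha, h', hh, rfl⟩ := hdec x
      obtain ⟨c, hc0, hφ⟩ := h ⟨h', hh⟩
      refine ⟨Units.mk0 c hc0, e (ι.symm ⟨a, ha⟩).toAdd, fun w => ?_⟩
      obtain ⟨v, rfl⟩ := e.surjective w
      rw [hform a ha h' hh v, map_add, add_comm]
      congr 1
      exact hφ v


/-- Bound for the order of the semiaffine group. -/
theorem card_semiaffine_le (F : Type) [Field F] [Finite F] :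
    Nat.card (Cfsg.semiaffineGroup F) ≤ (Nat.card F - 1) * Nat.card F * Nat.card (RingAut F) := by
  classical
  haveI : Finite (RingAut F) :=
    Finite.of_injective (fun f : F ≃+* F => (f : F → F)) DFunLike.coe_injective
  choose a b φ h using fun σ : Cfsg.semiaffineGroup F => σ.2
  let f : Cfsg.semiaffineGroup F → (Fˣ × F) × RingAut F := fun σ => ((a σ, b σ), φ σ)
  have hf : Function.Injective f := by
    intro σ τ hστ
    have h1 : a σ = a τ := congrArg (fun x => x.1.1) hστ
    have h2 : b σ = b τ := congrArg (fun x => x.1.2) hστ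
    have h3 : φ σ = φ τ := congrArg (fun x => x.2) hστ
    apply Subtype.ext
    ext x
    rw [h σ x, h τ x, h1, h2, h3]
  have := Nat.card_le_card_of_injective f hf
  rwa [Nat.card_prod, Nat.card_prod, Nat.card_units] at this

theorem card_affine_le (F : Type) [Field F] [Finite F] :
    Nat.card (Cfsg.affineGroup F) ≤ (Nat.card F - 1) * Nat.card F := by
  classical
  choose a b h using fun σ : Cfsg.affineGroup F => σ.2
  let f : Cfsg.affineGroup F → Fˣ × F := fun σ => (a σ, b σ)
  have hf : Function.Injective f := by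
    intro σ τ hστ
    have h1 : a σ = a τ := congrArg (fun x => x.1) hστ
    have h2 : b σ = b τ := congrArg (fun x => x.2) hστ
    apply Subtype.ext
    ext x
    rw [h σ x, h τ x, h1, h2]
  have := Nat.card_le_card_of_injective f hf
  rwa [Nat.card_prod, Nat.card_units] at this

/-- The abstract form of the theorem. -/
theorem core {n : ℕ} [Finite X] [Finite V] (hXs : Group.IsSolvable X) (A : Subgroup X) [hA : A.Normal]
    (ι : Multiplicative V ≃* A) (hn : finrank (ZMod p) V = n) (h3 : 3 ≤ n)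
    (hcent : ∀ x, (∀ a ∈ A, x * a = a * x) → x ∈ A) (hcop : (Nat.card A).Coprime A.index)
    (hT : ∀ B B' : Subgroup X, B ≤ A → B' ≤ A → Nat.card B = Nat.card B' →
      ∃ x, B' = B.map (MulAut.conj x).toMonoidHom) :
    (n = 3 ∧ (∃ f : X →* ↥(Cfsg.semiaffineGroup (GaloisField p 3)), Function.Injective f) ∧
      (p = 2 → Nonempty (X ≃* Cfsg.semiaffineGroup (GaloisField 2 3)) ∨
               Nonempty (X ≃* Cfsg.affineGroup (GaloisField 2 3)))) ∨
    (n = 5 ∧ p = 2 ∧ Nonempty (X ≃* Cfsg.semiaffineGroup (GaloisField 2 5))) := by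
  classical
  obtain ⟨hcase, Ψ, d, hinj, hsemi, hcard, h55, h23⟩ := perm_rep hXs A ι hn h3 hcent hcop hT
  have hn0 : n ≠ 0 := by omega
  haveI hF : Finite (GaloisField p n) := finite_galois (p := p) hn0
  let f : X →* ↥(Cfsg.semiaffineGroup (GaloisField p n)) := Ψ.codRestrict _ hsemi
  have hf : Function.Injective f := by
    intro x y hxy
    exact hinj (congrArg Subtype.val hxy)
  have hcardF : Nat.card (GaloisField p n) = p ^ n := GaloisField.card p n hn0
  have hAut := card_ringAut (p := p) (n := n) hn0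
  rcases hcase with rfl | ⟨rfl, rfl⟩
  · refine Or.inl ⟨rfl, ⟨f, hf⟩, fun hp2 => ?_⟩
    subst hp2
    rcases h23 rfl rfl with hd | ⟨hd, haff⟩
    · left
      have hb : Function.Bijective f := hf.bijective_of_nat_card_le (by
        have h1 := card_semiaffine_le (GaloisField 2 3)
        rw [hcard, hd]
        rw [hcardF, hAut] at h1
        refine h1.trans ?_
        norm_num)
      exact ⟨MulEquiv.ofBijective f hb⟩
    · right
      let f' : X →* ↥(Cfsg.affineGroup (GaloisField 2 3)) := Ψ.codRestrict _ haff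
      have hf' : Function.Injective f' := by
        intro x y hxy
        exact hinj (congrArg Subtype.val hxy)
      have hb : Function.Bijective f' := hf'.bijective_of_nat_card_le (by
        have h1 := card_affine_le (GaloisField 2 3)
        rw [hcard, hd]
        rw [hcardF] at h1
        refine h1.trans ?_
        norm_num)
      exact ⟨MulEquiv.ofBijective f' hb⟩
  · refine Or.inr ⟨rfl, rfl, ?_⟩
    have hb : Function.Bijective f := hf.bijective_of_nat_card_le (by
      have h1 := card_semiaffine_le (GaloisField 2 5)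
      rw [hcard, h55 rfl rfl]
      rw [hcardF, hAut] at h1
      refine h1.trans ?_
      norm_num)
    exact ⟨MulEquiv.ofBijective f hb⟩

end Cfsg.Agent.Lib.LinTrans
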