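import Mathlib
import Cfsg.Agent.Lib.Pres.Carmichael

/-!
# A Sylow 2-subgroup of the alternating group of degree 11

An explicit subgroup of order `128` generated by three involutions (as products of three-cycles through the two last
points): its centre has order two and it is self-normalising in the alternating group.
-/

set_option autoImplicit false
set_option linter.all false
set_option maxRecDepth 100000

namespace Cfsg.Agent.Lib.LyA11Syl

open Equiv Equiv.Perm Cfsg.Agent.Lib.Pres.Carmichael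

/-- The points. -/
abbrev Pt := Fin 9 ⊕ Bool

/-- The alternating group. -/
abbrev AA := alternatingGroup Pt

/-- Numbering of the points. -/
def en : Pt → ℕ
  | Sum.inl i => i
  | Sum.inr false => 9
  | Sum.inr true => 10

/-- Point of a number. -/
def de (p : ℕ) : Pt :=
  if h : p < 9 then Sum.inl ⟨p, h⟩ else if p = 9 then Sum.inr false else Sum.inr true

theorem de_en (a : Pt) : de (en a) = a := by
  rcases a with i | b
  · simp [en, de, i.2]
  · cases b <;> simp [en, de]

theorem en_lt (a : Pt) : en a < 11 := by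
  rcases a with i | b
  · have := i.2
    simp only [en]
    omega
  · cases b <;> simp [en]

theorem en_inj {a b : Pt} (h : en a = en b) : a = b := by
  rw [← de_en a, ← de_en b, h]

theorem en_de {p : ℕ} (h : p < 11) : en (de p) = p := by
  unfold de
  split_ifs with h1 h2
  · rfl
  · simp [en, h2]
  · simp only [en]
    omega

/-- The action on numbers. -/
def ev (σ : Perm Pt) (p : ℕ) : ℕ := en (σ (de p))

theorem ev_mul (σ τ : Perm Pt) (p : ℕ) : ev (σ * τ) p = ev σ (ev τ p) := by
  simp [ev, de_en]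

theorem ev_one {p : ℕ} (h : p < 11) : ev 1 p = p := by
  simp [ev, en_de h]

theorem ev_lt (σ : Perm Pt) (p : ℕ) : ev σ p < 11 := en_lt _

theorem ev_ext {σ τ : Perm Pt} (h : ∀ p < 11, ev σ p = ev τ p) : σ = τ := by
  ext a
  have := h (en a) (en_lt a)
  unfold ev at this
  rw [de_en] at this
  rw [en_inj this]

theorem ev_inj (σ : Perm Pt) {p q : ℕ} (hp : p < 11) (hq : q < 11) (h : ev σ p = ev σ q) : p = q := by
  have h1 := σ.injective (en_inj h)
  rw [← en_de hp, ← en_de hq, h1]

/-! ### Checks -/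

/-- Universal check. -/
def allB (n : ℕ) (f : ℕ → Bool) : Bool := (List.range n).all f

/-- Existential check. -/
def anyB (n : ℕ) (f : ℕ → Bool) : Bool := (List.range n).any f

theorem allB_spec {n : ℕ} {f : ℕ → Bool} (h : allB n f = true) {i : ℕ} (hi : i < n) : f i = true := by
  simp only [allB, List.all_eq_true, List.mem_range] at h
  exact h i hi

theorem anyB_spec {n : ℕ} {f : ℕ → Bool} (h : anyB n f = true) : ∃ i, i < n ∧ f i = true := by
  simpa only [anyB, List.any_eq_true, List.mem_range] using h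

/-- A digit of a table. -/
def dg (L n : ℕ) : ℕ := (L >>> (4 * n)) &&& 15

/-- Table of the three generators. -/
def GT : ℕ := 1052760674176389430559612191907773981335

/-- Table of the elements. -/
def ELT : ℕ := 481996492887065050107536570627118140767694893590041922656312591876391009623660952948866394696179305870736709242741715319556275198343363201227844141238131681188520680205644478317949548582395412587788379093434041629922621505818317962574542447516316979430946213815051838376873383149176984321996300914100155053148966077383236310389518881196901582491563813987639269249787346439804723246214331340621967270624985211475488638934456689099609271338716225675332897208023795879623155557732823627244595591990927611723464866671571908675241741095540618187896219993245488934046896619922153177465407616416282775552560014694529647815886715384066802660714134759315152677100386413839864929614115506746275347203810680112272239301542638483244660857640751733877816313017405637143758506458367931584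939369232166877742960374877306412052790104199889227260219556424540314451690438536209401858697410657132375371723491050874995901486374875182182237218856680553910349329429309120562345194969771085490562125496611915035332445064098372857748417046926798085211982227558539404237196141652932180242269715683200886372301032912452119109549255761637828367781168978848392993344314214302099882578768648972211957797054410650946987202550996892938157754080384747512118419397557015148633755737408313608466879178730830054349513968040596462557870680210756736586920429803666246158562312274625193235806111266770571829257109151021592533544978235295157994495744672219541070358806811913929616567931736409357787606287312646426010825773469636378670109345950202129341134968342297502826210979145640414671806245725367098175361310643077330413287071985744291350166984110200870028161369733046979818156734180500181342817299166161682944449024533242425127440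

/-- Generator action. -/
def gT (i p : ℕ) : ℕ := dg GT (11 * i + p)

/-- Element action. -/
def elT (j p : ℕ) : ℕ := dg ELT (11 * j + p)

/-- Central involution. -/
def zT (p : ℕ) : ℕ := elT 115 p

/-- Words for the elements. -/
def WL : List (List ℕ) := [[],[0],[1],[2],[1,0],[2,0],[0,1],[2,1],[1,2],[0,1,0],[2,1,0],[1,2,0],[1,0,1],[2,0,1],[1,2,1],[0,1,2],[2,1,2],[1,0,1,0],[2,0,1,0],[1,2,1,0],[0,1,2,0],[2,1,2,0],[2,1,0,1],[1,2,0,1],[0,1,2,1],[2,1,2,1],[1,0,1,2],[2,0,1,2],[1,2,1,2],[2,1,0,1,0],[1,2,0,1,0],[0,1,2,1,0],[2,1,2,1,0],[1,0,1,2,0],[2,0,1,2,0],[1,2,1,2,0],[1,2,1,0,1],[0,1,2,0,1],[2,1,2,0,1],[1,0,1,2,1],[2,0,1,2,1],[1,2,1,2,1],[2,1,0,1,2],[1,2,0,1,2],[0,1,2,1,2],[2,1,2,1,2],[1,2,1,0,1,0],[0,1,2,0,1,0],[2,1,2,0,1,0],[1,0,1,2,1,0],[2,0,1,2,1,0],[1,2,1,2,1,0],[2,1,0,1,2,0],[1,2,0,1,2,0],[0,1,2,1,2,0],[2,1,2,1,2,0],[0,1,2,1,0,1],[2,1,2,1,0,1],[1,0,1,2,0,1],[1,2,1,2,0,1],[2,1,0,1,2,1],[1,2,0,1,2,1],[0,1,2,1,2,1],[2,1,2,1,2,1],[1,2,1,0,1,2],[1,0,1,2,1,2],[2,0,1,2,1,2],[1,2,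1,2,1,2],[0,1,2,1,0,1,0],[2,1,2,1,0,1,0],[1,0,1,2,0,1,0],[1,2,1,2,0,1,0],[2,1,0,1,2,1,0],[1,2,0,1,2,1,0],[0,1,2,1,2,1,0],[2,1,2,1,2,1,0],[1,2,1,0,1,2,0],[1,0,1,2,1,2,0],[2,0,1,2,1,2,0],[1,2,1,2,1,2,0],[1,0,1,2,1,0,1],[1,2,1,2,1,0,1],[2,1,0,1,2,0,1],[2,1,2,1,2,0,1],[1,2,1,0,1,2,1],[1,0,1,2,1,2,1],[2,0,1,2,1,2,1],[1,2,1,2,1,2,1],[0,1,2,1,0,1,2],[2,1,2,1,0,1,2],[2,1,0,1,2,1,2],[1,2,0,1,2,1,2],[0,1,2,1,2,1,2],[2,1,2,1,2,1,2],[1,0,1,2,1,0,1,0],[1,2,1,2,1,0,1,0],[2,1,0,1,2,0,1,0],[2,1,2,1,2,0,1,0],[1,2,1,0,1,2,1,0],[1,0,1,2,1,2,1,0],[2,0,1,2,1,2,1,0],[1,2,1,2,1,2,1,0],[0,1,2,1,0,1,2,0],[2,1,2,1,0,1,2,0],[2,1,0,1,2,1,2,0],[1,2,0,1,2,1,2,0],[0,1,2,1,2,1,2,0],[2,1,2,1,2,1,2,0],[2,1,0,1,2,1,0,1],[2,1,2,1,2,1,0,1],[1,2,1,0,1,2,0,1],[1,2,1,2,1,2,0,1],[2,1,2,1,0,1,2,1],[2,1,0,1,2,1,2,1],[1,2,0,1,2,1,2,1],[2,1,2,1,2,1,2,1],[2,0,1,2,1,2,1,2],[2,1,0,1,2,1,0,1,0],[2,1,2,1,2,1,0,1,0],[1,2,1,0,1,2,0,1,0],[1,2,1,2,1,2,0,1,0],[2,1,2,1,0,1,2,1,0],[2,1,0,1,2,1,2,1,0],[1,2,0,1,2,1,2,1,0],[2,1,2,1,2,1,2,1,0],[2,0,1,2,1,2,1,2,0],[2,1,2,1,2,1,2,0,1],[2,1,2,1,2,1,2,0,1,0]]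

/-- Word number. -/
def wd (j : ℕ) : List ℕ := WL.getD j []

/-- The three lists of three-cycles. -/
def lW : ℕ → List ℕ
  | 0 => [0,7,7,0,1,1,4,3,8,4,4]
  | 1 => [1,0,7,1,1,3,8,8,3,4,4]
  | _ => [0,7,7,0,1,1,2,3,6,2,2]

/-- A three-cycle on numbers. -/
def cN (q p : ℕ) : ℕ :=
  if p = q % 9 then 9 else if p = 9 then 10 else if p = 10 then q % 9 else p

/-- Product of three-cycles on numbers. -/
def evL : List ℕ → ℕ → ℕ
  | [], p => p
  | q :: l, p => cN q (evL l p)

/-- Word in the generators on numbers. -/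
def evW : List ℕ → ℕ → ℕ
  | [], p => p
  | i :: w, p => gT i (evW w p)

theorem gens_chk : allB 3 (fun i => allB 11 fun p => evL (lW i) p == gT i p) = true := by decide +kernel

theorem words_chk : allB 128 (fun j => allB 11 fun p => evW (wd j) p == elT j p) = true := by decide +kernel

theorem wordsI_chk : allB 128 (fun j => (wd j).all fun i => decide (i < 3)) = true := by decide +kernel

theorem inv_chk : allB 3 (fun i => allB 11 fun p => gT i (gT i p) == p) = true := by decide +kernel

theorem gT_lt_chk : allB 3 (fun i => allB 11 fun p => decide (gT i p < 11)) = true := by decide +kernel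

theorem elT_lt_chk : allB 128 (fun j => allB 11 fun p => decide (elT j p < 11)) = true := by decide +kernel

theorem closed_chk : allB 3 (fun i => allB 128 fun j => anyB 128 fun k => allB 11 fun p => gT i (elT j p) == elT k p) = true := by
  decide +kernel

theorem inj_chk : allB 128 (fun j => allB 128 fun k => (j == k) || anyB 11 fun p => elT j p != elT k p) = true := by
  decide +kernel

theorem central_chk : allB 128 (fun j => !(allB 3 fun i => allB 11 fun p => elT j (gT i p) == gT i (elT j p)) || j == 0 || j == 115) = true := by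
  decide +kernel

theorem z_chk : allB 11 (fun p => gT 1 (gT 2 (gT 1 (gT 2 (gT 1 (gT 2 (gT 1 (gT 2 p))))))) == elT 115 p) = true := by
  decide +kernel

theorem fix_chk : allB 11 (fun p => !(allB 3 fun i => gT i p == p) || p == 5) = true := by decide +kernel

theorem fix5_chk : allB 3 (fun i => gT i 5 == 5) = true := by decide +kernel

/-- The moved points of the central involution. -/
def B8 : List ℕ := [0,1,3,4,7,8,9,10]

theorem zf1_chk : allB 11 (fun p => (zT p == p) || B8.contains p) = true := by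
  decide +kernel

theorem zf2_chk : allB 11 (fun p => (zT p != p) || p == 2 || p == 5 || p == 6) = true := by
  decide +kernel

theorem zc_chk : allB 3 (fun i => allB 11 fun p => elT 115 (gT i p) == gT i (elT 115 p)) = true := by decide +kernel

theorem el5_chk : allB 128 (fun j => elT j 5 == 5) = true := by decide +kernel

theorem zvals : zT 0 = 7 ∧ zT 1 = 10 ∧ zT 3 = 9 ∧ zT 4 = 8 ∧ zT 2 = 2 ∧ zT 5 = 5 ∧ zT 6 = 6 := by decide +kernel

/-- The candidate table of a normalising permutation. -/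
def Yf (q0 q1 q3 q4 q2 : ℕ) : ℕ → ℕ
  | 0 => q0
  | 1 => q1
  | 2 => q2
  | 3 => q3
  | 4 => q4
  | 5 => 5
  | 6 => 8 - q2
  | 7 => zT q0
  | 8 => zT q4
  | 9 => zT q3
  | 10 => zT q1
  | _ => 0

/-- Normalising check on a table. -/
def normOK (Y : ℕ → ℕ) : Bool :=
  allB 3 fun i => anyB 128 fun j => allB 11 fun p => elT j (Y p) == Y (gT i p)

/-- Membership check on a table. -/
def inP (Y : ℕ → ℕ) : Bool :=
  anyB 128 fun j => allB 11 fun p => Y p == elT j p

/-- The transposition on numbers. -/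
def tauN (p : ℕ) : ℕ := if p = 2 then 6 else if p = 6 then 2 else p

/-- Check of the normaliser: every normalising table lies in the group or its coset. -/
theorem norm_chk :
    (B8.all fun q0 => B8.all fun q1 => !(q1 != q0 && q1 != zT q0) || B8.all fun q3 =>
      !(q3 != q0 && q3 != zT q0 && q3 != q1 && q3 != zT q1) || B8.all fun q4 =>
      !(q4 != q0 && q4 != zT q0 && q4 != q1 && q4 != zT q1 && q4 != q3 && q4 != zT q3) ||
      ([2, 6] : List ℕ).all fun q2 =>
        !normOK (Yf q0 q1 q3 q4 q2) || inP (Yf q0 q1 q3 q4 q2) || inP (fun p => Yf q0 q1 q3 q4 q2 (tauN p))) = true := by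
  decide +kernel


/-! ### The subgroup -/

theorem allB_of {n : ℕ} {f : ℕ → Bool} (h : ∀ i < n, f i = true) : allB n f = true := by
  simp only [allB, List.all_eq_true, List.mem_range]
  exact h

theorem anyB_of {n : ℕ} {f : ℕ → Bool} {i : ℕ} (hi : i < n) (h : f i = true) : anyB n f = true := by
  simp only [anyB, List.any_eq_true, List.mem_range]
  exact ⟨i, hi, h⟩

theorem imp_or {a b : Bool} (h : (!a || b) = true) (ha : a = true) : b = true := by
  subst ha
  simpa using h

/-- A three-cycle in the alternating group. -/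
def cyA (q : ℕ) : AA := cycA (Fin.ofNat 9 q)

/-- Product of three-cycles. -/
def pwA : List ℕ → AA
  | [] => 1
  | q :: l => cyA q * pwA l

theorem ev_cyc : ∀ (r : Fin 9) (x : Fin 11), ev (cyc r) x =
    if (x : ℕ) = r then 9 else if (x : ℕ) = 9 then 10 else if (x : ℕ) = 10 then (r : ℕ) else x := by
  decide +kernel

theorem ev_cyA (q : ℕ) {p : ℕ} (hp : p < 11) : ev (cyA q : Perm Pt) p = cN q p := by
  have h := ev_cyc (Fin.ofNat 9 q) ⟨p, hp⟩
  have e : ((Fin.ofNat 9 q : Fin 9) : ℕ) = q % 9 := rfl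
  simp only [e] at h
  exact h

theorem ev_pwA (l : List ℕ) {p : ℕ} (hp : p < 11) : ev (pwA l : Perm Pt) p = evL l p := by
  induction l with
  | nil => exact ev_one hp
  | cons q l ih =>
    show ev ((cyA q : Perm Pt) * (pwA l : Perm Pt)) p = cN q (evL l p)
    rw [ev_mul, ev_cyA q (ev_lt _ _), ih]

/-- The generators. -/
def gA (i : ℕ) : AA := pwA (lW i)

theorem ev_gA {i p : ℕ} (hi : i < 3) (hp : p < 11) : ev (gA i : Perm Pt) p = gT i p := by
  rw [gA, ev_pwA _ hp]
  exact beq_iff_eq.mp (allB_spec (allB_spec gens_chk hi) hp)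

theorem gT_lt {i p : ℕ} (hi : i < 3) (hp : p < 11) : gT i p < 11 :=
  of_decide_eq_true (allB_spec (allB_spec gT_lt_chk hi) hp)

theorem elT_lt {j p : ℕ} (hj : j < 128) (hp : p < 11) : elT j p < 11 :=
  of_decide_eq_true (allB_spec (allB_spec elT_lt_chk hj) hp)

/-- Words. -/
def wA : List ℕ → AA
  | [] => 1
  | i :: w => gA i * wA w

/-- The elements. -/
def el (j : ℕ) : AA := wA (wd j)

theorem ev_wA (w : List ℕ) (hw : ∀ i ∈ w, i < 3) {p : ℕ} (hp : p < 11) : ev (wA w : Perm Pt) p = evW w p := by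
  induction w with
  | nil => exact ev_one hp
  | cons i w ih =>
    show ev ((gA i : Perm Pt) * (wA w : Perm Pt)) p = gT i (evW w p)
    rw [ev_mul, ev_gA (hw i (by simp)) (ev_lt _ _), ih (fun k hk => hw k (List.mem_cons_of_mem _ hk))]

theorem wd_lt {j : ℕ} (hj : j < 128) : ∀ i ∈ wd j, i < 3 := by
  intro i hi
  have h := allB_spec wordsI_chk hj
  exact of_decide_eq_true (List.all_eq_true.mp h i hi)

theorem ev_el {j p : ℕ} (hj : j < 128) (hp : p < 11) : ev (el j : Perm Pt) p = elT j p := by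
  rw [el, ev_wA _ (wd_lt hj) hp]
  exact beq_iff_eq.mp (allB_spec (allB_spec words_chk hj) hp)

theorem AA_ext {a b : AA} (h : ∀ p < 11, ev (a : Perm Pt) p = ev (b : Perm Pt) p) : a = b :=
  Subtype.ext (ev_ext h)

theorem ev_mulA (a b : AA) (p : ℕ) : ev ((a * b : AA) : Perm Pt) p = ev (a : Perm Pt) (ev (b : Perm Pt) p) :=
  ev_mul _ _ _

/-- The subgroup. -/
def PA : Subgroup AA := Subgroup.closure (Set.range fun i : Fin 3 => gA i)

theorem gA_mem {i : ℕ} (hi : i < 3) : gA i ∈ PA := Subgroup.subset_closure ⟨⟨i, hi⟩, rfl⟩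

theorem wA_mem (w : List ℕ) (hw : ∀ i ∈ w, i < 3) : wA w ∈ PA := by
  induction w with
  | nil => exact PA.one_mem
  | cons i w ih =>
    exact PA.mul_mem (gA_mem (hw i (by simp))) (ih (fun k hk => hw k (List.mem_cons_of_mem _ hk)))

theorem el_mem {j : ℕ} (hj : j < 128) : el j ∈ PA := wA_mem _ (wd_lt hj)

theorem gA_sq {i : ℕ} (hi : i < 3) : gA i * gA i = 1 := by
  apply AA_ext
  intro p hp
  rw [ev_mulA, ev_gA hi hp, ev_gA hi (gT_lt hi hp)]
  have := beq_iff_eq.mp (allB_spec (allB_spec inv_chk hi) hp)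
  rw [this]
  exact (ev_one hp).symm

theorem gA_inv {i : ℕ} (hi : i < 3) : (gA i)⁻¹ = gA i :=
  inv_eq_of_mul_eq_one_left (gA_sq hi)

theorem gA_mul_el {i j : ℕ} (hi : i < 3) (hj : j < 128) : ∃ k, k < 128 ∧ gA i * el j = el k := by
  obtain ⟨k, hk, h⟩ := anyB_spec (allB_spec (allB_spec closed_chk hi) hj)
  refine ⟨k, hk, ?_⟩
  apply AA_ext
  intro p hp
  rw [ev_mulA, ev_el hj hp, ev_gA hi (elT_lt hj hp), ev_el hk hp]
  exact beq_iff_eq.mp (allB_spec h hp)

theorem el_zero : el 0 = 1 := by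
  have : wd 0 = [] := by decide +kernel
  show wA (wd 0) = 1
  rw [this]
  rfl

theorem mem_PA {y : AA} (hy : y ∈ PA) : ∃ j, j < 128 ∧ y = el j := by
  induction hy using Subgroup.closure_induction_left with
  | one => exact ⟨0, by norm_num, el_zero.symm⟩
  | mul_left x hx y hy ih =>
    obtain ⟨i, rfl⟩ := hx
    obtain ⟨j, hj, rfl⟩ := ih
    obtain ⟨k, hk, e⟩ := gA_mul_el i.2 hj
    exact ⟨k, hk, e⟩
  | inv_mul_cancel x hx y hy ih =>
    obtain ⟨i, rfl⟩ := hx
    obtain ⟨j, hj, rfl⟩ := ih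
    obtain ⟨k, hk, e⟩ := gA_mul_el i.2 hj
    refine ⟨k, hk, ?_⟩
    show (gA i)⁻¹ * el j = el k
    rw [gA_inv i.2]
    exact e

theorem el_inj {j k : ℕ} (hj : j < 128) (hk : k < 128) (h : el j = el k) : j = k := by
  have h1 := allB_spec (allB_spec inj_chk hj) hk
  rcases Bool.or_eq_true _ _ |>.mp h1 with h2 | h2
  · exact beq_iff_eq.mp h2
  · exfalso
    obtain ⟨p, hp, h3⟩ := anyB_spec h2
    apply bne_iff_ne.mp h3
    rw [← ev_el hj hp, ← ev_el hk hp, h]

theorem card_PA : Nat.card PA = 128 := by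
  let f : Fin 128 → PA := fun j => ⟨el j, el_mem j.2⟩
  have hf : Function.Bijective f := by
    constructor
    · intro a b hab
      exact Fin.ext (el_inj a.2 b.2 (congrArg Subtype.val hab))
    · rintro ⟨y, hy⟩
      obtain ⟨j, hj, rfl⟩ := mem_PA hy
      exact ⟨⟨j, hj⟩, rfl⟩
  rw [← Nat.card_congr (Equiv.ofBijective f hf)]
  simp

/-- The central involution. -/
def zA : AA := (gA 1 * gA 2 * (gA 1 * gA 2)) * (gA 1 * gA 2 * (gA 1 * gA 2))

theorem comp2 {a b : AA} {fa fb : ℕ → ℕ} (ha : ∀ x < 11, ev (a : Perm Pt) x = fa x)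
    (hb : ∀ x < 11, ev (b : Perm Pt) x = fb x) : ∀ x < 11, ev ((a * b : AA) : Perm Pt) x = fa (fb x) := by
  intro x hx
  rw [ev_mulA, ha _ (ev_lt _ _), hb x hx]

theorem zA_eq : zA = el 115 := by
  apply AA_ext
  intro p hp
  have g1 : ∀ x < 11, ev (gA 1 : Perm Pt) x = gT 1 x := fun x hx => ev_gA (by norm_num) hx
  have g2 : ∀ x < 11, ev (gA 2 : Perm Pt) x = gT 2 x := fun x hx => ev_gA (by norm_num) hx
  have m := comp2 g1 g2
  have m2 := comp2 m m
  have m4 := comp2 m2 m2 p hp
  rw [ev_el (by norm_num) hp]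
  exact m4.trans (beq_iff_eq.mp (allB_spec z_chk hp))

theorem ev_zA {p : ℕ} (hp : p < 11) : ev (zA : Perm Pt) p = zT p := by
  rw [zA_eq]
  exact ev_el (by norm_num) hp

theorem zA_mem : zA ∈ PA := by
  rw [zA_eq]
  exact el_mem (by norm_num)

theorem zA_ne : zA ≠ 1 := by
  intro h
  have h1 := ev_zA (p := 0) (by norm_num)
  rw [h] at h1
  have h2 : ev ((1 : AA) : Perm Pt) 0 = 0 := ev_one (by norm_num)
  rw [h2, zvals.1] at h1
  norm_num at h1

theorem zA_central {s : AA} (hs : s ∈ PA) : zA * s = s * zA := by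
  have h : PA ≤ Subgroup.centralizer ({zA} : Set AA) := by
    rw [PA, Subgroup.closure_le]
    rintro _ ⟨i, rfl⟩
    show gA i ∈ Subgroup.centralizer ({zA} : Set AA)
    rw [Subgroup.mem_centralizer_singleton_iff]
    apply AA_ext
    intro p hp
    rw [ev_mulA, ev_mulA, ev_gA i.2 hp, ev_zA hp, ev_zA (gT_lt i.2 hp), ev_gA i.2 (show zT p < 11 from elT_lt (by norm_num) hp)]
    exact (beq_iff_eq.mp (allB_spec (allB_spec zc_chk i.2) hp)).symm
  have h1 := Subgroup.mem_centralizer_singleton_iff.mp (h hs)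
  exact h1.symm

/-- The centre of the subgroup. -/
theorem central_PA {y : AA} (hy : y ∈ PA) (hc : ∀ s ∈ PA, y * s = s * y) : y = 1 ∨ y = zA := by
  obtain ⟨j, hj, rfl⟩ := mem_PA hy
  have hA : allB 3 (fun i => allB 11 fun p => elT j (gT i p) == gT i (elT j p)) = true := by
    apply allB_of
    intro i hi
    apply allB_of
    intro p hp
    have h1 := congrArg (fun a : AA => ev (a : Perm Pt) p) (hc _ (gA_mem hi))
    simp only [ev_mulA] at h1
    rw [ev_gA hi hp, ev_el hj (gT_lt hi hp), ev_el hj hp, ev_gA hi (elT_lt hj hp)] at h1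
    exact beq_iff_eq.mpr h1
  have h := allB_spec central_chk hj
  have h' : (!(allB 3 (fun i => allB 11 fun p => elT j (gT i p) == gT i (elT j p))) || j == 0 || j == 115) = true := h
  rw [hA] at h'
  have h2 : j = 0 ∨ j = 115 := by simpa using h'
  rcases h2 with rfl | rfl
  · exact Or.inl el_zero
  · exact Or.inr zA_eq.symm

/-- Conjugation by a normalising element, in the other direction. -/
theorem conj_inv_mem {Γ : Type*} [Group Γ] [Finite Γ] (N : Subgroup Γ) (y : Γ) (h : ∀ s ∈ N, y * s * y⁻¹ ∈ N) :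
    ∀ s ∈ N, y⁻¹ * s * y ∈ N := by
  have hk : ∀ k : ℕ, ∀ s ∈ N, y ^ k * s * (y ^ k)⁻¹ ∈ N := by
    intro k
    induction k with
    | zero => simpa using fun s hs => hs
    | succ k ih =>
      intro s hs
      have e : y ^ (k + 1) * s * (y ^ (k + 1))⁻¹ = y ^ k * (y * s * y⁻¹) * (y ^ k)⁻¹ := by
        rw [pow_succ]
        group
      rw [e]
      exact ih _ (h s hs)
  have hn : 0 < orderOf y := orderOf_pos y
  have e : y⁻¹ = y ^ (orderOf y - 1) := by
    apply inv_eq_of_mul_eq_one_left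
    rw [← pow_succ, Nat.sub_add_cancel hn, pow_orderOf_eq_one]
  intro s hs
  have := hk (orderOf y - 1) s hs
  rw [← e] at this
  simpa using this

theorem conj_z {y : AA} (hn : ∀ s ∈ PA, y * s * y⁻¹ ∈ PA) : y * zA * y⁻¹ = zA := by
  have hn' := conj_inv_mem PA y hn
  have h1 : y * zA * y⁻¹ ∈ PA := hn _ zA_mem
  have h2 : ∀ s ∈ PA, (y * zA * y⁻¹) * s = s * (y * zA * y⁻¹) := by
    intro s hs
    have c : zA * (y⁻¹ * s * y) = (y⁻¹ * s * y) * zA := zA_central (hn' s hs)
    calc (y * zA * y⁻¹) * s = y * (zA * (y⁻¹ * s * y)) * y⁻¹ := by group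
      _ = y * ((y⁻¹ * s * y) * zA) * y⁻¹ := by rw [c]
      _ = s * (y * zA * y⁻¹) := by group
  rcases central_PA h1 h2 with h | h
  · exfalso
    apply zA_ne
    have h3 : y * zA = y := by
      rw [mul_inv_eq_one] at h
      exact h
    simpa using h3
  · exact h

theorem ev_tau : ∀ x : Fin 11, ev (swap (de 2) (de 6)) x = tauN x := by
  decide +kernel

theorem el_five {j : ℕ} (hj : j < 128) : elT j 5 = 5 := beq_iff_eq.mp (allB_spec el5_chk hj)

/-- The self-normalising property. -/
theorem norm_PA {y : AA} (hn : ∀ s ∈ PA, y * s * y⁻¹ ∈ PA) : y ∈ PA := by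
  have hn' := conj_inv_mem PA y hn
  set Y : ℕ → ℕ := ev (y : Perm Pt) with hYdef
  have hYlt : ∀ p, Y p < 11 := fun p => ev_lt _ _
  have hinj : ∀ p q, p < 11 → q < 11 → Y p = Y q → p = q := fun p q hp hq h => ev_inj _ hp hq h
  have hzlt : ∀ p, p < 11 → zT p < 11 := fun p hp => elT_lt (by norm_num) hp
  have hz : ∀ p, p < 11 → Y (zT p) = zT (Y p) := by
    intro p hp
    have e : y * zA = zA * y := by
      have := conj_z hn
      rwa [mul_inv_eq_iff_eq_mul] at this
    have h1 := congrArg (fun a : AA => ev (a : Perm Pt) p) e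
    simp only [ev_mulA] at h1
    rw [ev_zA hp, ev_zA (ev_lt _ _)] at h1
    exact h1
  have h5 : Y 5 = 5 := by
    have hA : allB 3 (fun i => gT i (Y 5) == Y 5) = true := by
      apply allB_of
      intro i hi
      obtain ⟨j, hj, e⟩ := mem_PA (hn' _ (gA_mem hi))
      have e1 : gA i * y = y * el j := by
        rw [← e]
        group
      have h1 := congrArg (fun a : AA => ev (a : Perm Pt) 5) e1
      simp only [ev_mulA] at h1
      rw [ev_el hj (by norm_num), el_five hj, ev_gA hi (hYlt 5)] at h1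
      exact beq_iff_eq.mpr h1
    have h := allB_spec fix_chk (hYlt 5)
    have h' : (!(allB 3 (fun i => gT i (Y 5) == Y 5)) || Y 5 == 5) = true := h
    exact beq_iff_eq.mp (imp_or h' hA)
  have hB : ∀ p, p < 11 → zT p ≠ p → Y p ∈ B8 := by
    intro p hp hzp
    have h1 : zT (Y p) ≠ Y p := by
      rw [← hz p hp]
      intro e
      exact hzp (hinj _ _ (hzlt p hp) hp e)
    have h2 := allB_spec zf1_chk (hYlt p)
    rcases Bool.or_eq_true _ _ |>.mp h2 with h3 | h3
    · exact absurd (beq_iff_eq.mp h3) h1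
    · simpa [List.contains_iff_mem] using h3
  have hF : ∀ p, p < 11 → zT p = p → p ≠ 5 → Y p = 2 ∨ Y p = 6 := by
    intro p hp hzp h5p
    have h1 : zT (Y p) = Y p := by
      rw [← hz p hp, hzp]
    have hne : Y p ≠ 5 := by
      intro e
      apply h5p
      exact hinj _ _ hp (by norm_num) (e.trans h5.symm)
    have h2 := allB_spec zf2_chk (hYlt p)
    have h3 : (zT (Y p) != Y p || Y p == 2 || Y p == 5 || Y p == 6) = true := h2
    simp only [Bool.or_eq_true, beq_iff_eq, bne_iff_ne] at h3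
    rcases h3 with ((h3 | h3) | h3) | h3
    · exact absurd h1 h3
    · exact Or.inl h3
    · exact absurd h3 hne
    · exact Or.inr h3
  obtain ⟨z0, z1, z3, z4, z2, z5, z6⟩ := zvals
  have hq0 : Y 0 ∈ B8 := hB 0 (by norm_num) (by rw [z0]; norm_num)
  have hq1 : Y 1 ∈ B8 := hB 1 (by norm_num) (by rw [z1]; norm_num)
  have hq3 : Y 3 ∈ B8 := hB 3 (by norm_num) (by rw [z3]; norm_num)
  have hq4 : Y 4 ∈ B8 := hB 4 (by norm_num) (by rw [z4]; norm_num)
  have hq2 := hF 2 (by norm_num) z2 (by norm_num)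
  have hq6 := hF 6 (by norm_num) z6 (by norm_num)
  have h26 : Y 6 = 8 - Y 2 := by
    have hne : Y 6 ≠ Y 2 := fun e => absurd (hinj _ _ (by norm_num) (by norm_num) e) (by norm_num)
    omega
  have h7 : Y 7 = zT (Y 0) := by
    have := hz 0 (by norm_num)
    rwa [z0] at this
  have h10 : Y 10 = zT (Y 1) := by
    have := hz 1 (by norm_num)
    rwa [z1] at this
  have h9 : Y 9 = zT (Y 3) := by
    have := hz 3 (by norm_num)
    rwa [z3] at this
  have h8 : Y 8 = zT (Y 4) := by
    have := hz 4 (by norm_num)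
    rwa [z4] at this
  set Yt : ℕ → ℕ := Yf (Y 0) (Y 1) (Y 3) (Y 4) (Y 2) with hYt
  have hY : ∀ p, p < 11 → Y p = Yt p := by
    intro p hp
    interval_cases p
    · rfl
    · rfl
    · rfl
    · rfl
    · rfl
    · exact h5
    · exact h26
    · exact h7
    · exact h8
    · exact h9
    · exact h10
  have hne : ∀ p q, p < 11 → q < 11 → p ≠ q → (Y p != Y q) = true := by
    intro p q hp hq hpq
    rw [bne_iff_ne]
    exact fun e => hpq (hinj _ _ hp hq e)
  have hnez : ∀ p q, p < 11 → q < 11 → p ≠ zT q → (Y p != zT (Y q)) = true := by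
    intro p q hp hq hpq
    rw [bne_iff_ne, ← hz q hq]
    exact fun e => hpq (hinj _ _ hp (hzlt q hq) e)
  have hnormOK : normOK Yt = true := by
    apply allB_of
    intro i hi
    obtain ⟨j, hj, e⟩ := mem_PA (hn _ (gA_mem hi))
    apply anyB_of hj
    apply allB_of
    intro p hp
    have e1 : y * gA i = el j * y := by
      rw [← e]
      group
    have h1 := congrArg (fun a : AA => ev (a : Perm Pt) p) e1
    simp only [ev_mulA] at h1
    rw [ev_gA hi hp, ev_el hj (ev_lt _ _)] at h1
    show (elT j (Yt p) == Yt (gT i p)) = true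
    rw [← hY p hp, ← hY _ (gT_lt hi hp)]
    exact beq_iff_eq.mpr h1.symm
  have hc0 := List.all_eq_true.mp norm_chk _ hq0
  have hc1 := List.all_eq_true.mp hc0 _ hq1
  have hc1' := imp_or hc1 (by
    simp only [Bool.and_eq_true]
    exact ⟨hne 1 0 (by norm_num) (by norm_num) (by norm_num), hnez 1 0 (by norm_num) (by norm_num) (by rw [z0]; norm_num)⟩)
  have hc3 := List.all_eq_true.mp hc1' _ hq3
  have hc3' := imp_or hc3 (by
    simp only [Bool.and_eq_true]
    exact ⟨⟨⟨hne 3 0 (by norm_num) (by norm_num) (by norm_num), hnez 3 0 (by norm_num) (by norm_num) (by rw [z0]; norm_num)⟩,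
      hne 3 1 (by norm_num) (by norm_num) (by norm_num)⟩, hnez 3 1 (by norm_num) (by norm_num) (by rw [z1]; norm_num)⟩)
  have hc4 := List.all_eq_true.mp hc3' _ hq4
  have hc4' := imp_or hc4 (by
    simp only [Bool.and_eq_true]
    exact ⟨⟨⟨⟨⟨hne 4 0 (by norm_num) (by norm_num) (by norm_num), hnez 4 0 (by norm_num) (by norm_num) (by rw [z0]; norm_num)⟩,
      hne 4 1 (by norm_num) (by norm_num) (by norm_num)⟩, hnez 4 1 (by norm_num) (by norm_num) (by rw [z1]; norm_num)⟩,
      hne 4 3 (by norm_num) (by norm_num) (by norm_num)⟩, hnez 4 3 (by norm_num) (by norm_num) (by rw [z3]; norm_num)⟩)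
  have hq2' : Y 2 ∈ ([2, 6] : List ℕ) := by
    rcases hq2 with e | e <;> simp [e]
  have hc2 := List.all_eq_true.mp hc4' _ hq2'
  have hfin : (!normOK Yt || inP Yt || inP (fun p => Yt (tauN p))) = true := hc2
  rw [hnormOK] at hfin
  have hfin' : inP Yt = true ∨ inP (fun p => Yt (tauN p)) = true := by simpa using hfin
  rcases hfin' with h1 | h1
  · obtain ⟨j, hj, h2⟩ := anyB_spec h1
    have : y = el j := by
      apply AA_ext
      intro p hp
      rw [ev_el hj hp]
      show Y p = _
      rw [hY p hp]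
      exact beq_iff_eq.mp (allB_spec h2 hp)
    rw [this]
    exact el_mem hj
  · exfalso
    obtain ⟨j, hj, h2⟩ := anyB_spec h1
    have e : (y : Perm Pt) * swap (de 2) (de 6) = (el j : Perm Pt) := by
      apply ev_ext
      intro p hp
      rw [ev_mul, ev_el hj hp]
      have ht := ev_tau ⟨p, hp⟩
      have ht' : ev (swap (de 2) (de 6)) p = tauN p := ht
      rw [ht']
      have hlt : tauN p < 11 := by
        unfold tauN
        split_ifs <;> omega
      show Y (tauN p) = _
      rw [hY _ hlt]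
      exact beq_iff_eq.mp (allB_spec h2 hp)
    have hs := congrArg sign e
    rw [map_mul, sign_swap (by decide +kernel), (mem_alternatingGroup.mp y.2), (mem_alternatingGroup.mp (el j).2)] at hs
    exact absurd hs (by decide)

end Cfsg.Agent.Lib.LyA11Syl
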