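import Mathlib
import Cfsg.Agent.Lib.DoubleA11
import Cfsg.Agent.Lib.LyA11Syl
import Cfsg.Agent.Lib.FusionEmbed
import Cfsg.Agent.Lib.PuigBasic
import Cfsg.Agent.Lib.LyDce.FusData

/-!
# The fusion system of a group whose involution centraliser is a double cover of the alternating group of degree 11

The group is assumed to have a Sylow 2-subgroup of order `256`, and the preimage of the explicit subgroup of order
`128` of the alternating group is assumed to have all its three generators conjugate to the central involution.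
-/

set_option autoImplicit false
set_option linter.all false

namespace Cfsg.Agent.Lib.LyFusMain

open Cfsg.Agent.Lib.Pres.Carmichael Cfsg.Agent.Lib.DoubleA11 Cfsg.Agent.Lib.LyA11Syl Cfsg.Agent.Lib.LyDce

variable {X : Type*} [Group X] [Finite X]

/-- The centraliser. -/
abbrev Ce (t : X) : Subgroup X := Subgroup.centralizer ({t} : Set X)

/-- The map to the alternating group. -/
theorem exists_pi {t h s : X} (ht2 : t ^ 2 = 1) (ht1 : t ≠ 1) (hh : h * t = t * h) (hs : s * t = t * s)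
    (h9 : h ^ 9 = 1 ∨ h ^ 9 = t) (s3 : s ^ 3 = 1)
    (p1 : (s * (h ^ 1 * s * (h ^ 1)⁻¹)) ^ 2 = t) (p2 : (s * (h ^ 2 * s * (h ^ 2)⁻¹)) ^ 2 = t)
    (p3 : (s * (h ^ 3 * s * (h ^ 3)⁻¹)) ^ 2 = t) (p4 : (s * (h ^ 4 * s * (h ^ 4)⁻¹)) ^ 2 = t)
    (hc : Nat.card (Subgroup.centralizer ({t} : Set X)) < 79833600) :
    ∃ π : Ce t →* AA, Function.Surjective π ∧ (∀ y : Ce t, π y = 1 ↔ y = 1 ∨ (y : X) = t) ∧
      Nat.card (Ce t) = 39916800 ∧
      ∀ q, q < 9 → π (uu (⟨h, cent_mem hh⟩ : Ce t) (⟨s, cent_mem hs⟩ : Ce t) q) = cyA q := by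
  classical
  let C := Subgroup.centralizer ({t} : Set X)
  let t' : C := ⟨t, cent_mem rfl⟩
  let h' : C := ⟨h, cent_mem hh⟩
  let s' : C := ⟨s, cent_mem hs⟩
  have ht'c : ∀ y : C, y * t' = t' * y := by
    intro y
    apply Subtype.ext
    exact Subgroup.mem_centralizer_singleton_iff.mp y.2
  have ht'2 : t' ^ 2 = 1 := Subtype.ext ht2
  have ht'1 : t' ≠ 1 := fun e => ht1 (congrArg Subtype.val e)
  have hord : orderOf t' = 2 := orderOf_eq_prime ht'2 ht'1
  let Z : Subgroup C := Subgroup.zpowers t'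
  have hZmem : ∀ y : C, y ∈ Z ↔ y = 1 ∨ y = t' := by
    intro y
    constructor
    · intro hy
      obtain ⟨k, rfl⟩ := Subgroup.mem_zpowers_iff.mp hy
      rcases Int.emod_two_eq_zero_or_one k with hk | hk
      · left
        have : (2 : ℤ) ∣ k := Int.dvd_of_emod_eq_zero hk
        obtain ⟨m, rfl⟩ := this
        rw [zpow_mul]
        have : t' ^ (2 : ℤ) = 1 := by exact_mod_cast ht'2
        rw [this, one_zpow]
      · right
        have hk2 : k = 2 * (k / 2) + 1 := by omega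
        rw [hk2, zpow_add, zpow_mul]
        have : t' ^ (2 : ℤ) = 1 := by exact_mod_cast ht'2
        rw [this, one_zpow]
        simp
    · rintro (rfl | rfl)
      · exact Z.one_mem
      · exact Subgroup.mem_zpowers _
  have hZc : ∀ z ∈ Z, ∀ y : C, y * z = z * y := by
    intro z hz y
    rcases (hZmem z).mp hz with rfl | rfl
    · simp
    · exact ht'c y
  haveI hZn : Z.Normal := ⟨fun n hn g => by
    have e : g * n * g⁻¹ = n := by rw [hZc n hn g]; group
    rw [e]
    exact hn⟩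
  have hZcard : Nat.card Z = 2 := by
    show Nat.card (Subgroup.zpowers t') = 2
    rw [Nat.card_zpowers, hord]
  let Γ := C ⧸ Z
  let mk : C →* Γ := QuotientGroup.mk' Z
  have hmk : ∀ y : C, mk y = 1 ↔ y ∈ Z := fun y => QuotientGroup.eq_one_iff y
  have hh9 : (mk h') ^ 9 = 1 := by
    rw [← map_pow, hmk, hZmem]
    rcases h9 with e | e
    · left
      exact Subtype.ext e
    · right
      exact Subtype.ext e
  have hs3 : (mk s') ^ 3 = 1 := by
    rw [← map_pow, hmk, hZmem]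
    left
    exact Subtype.ext s3
  have huu : ∀ i, uu (mk h') (mk s') i = mk (h' ^ i * s' * (h' ^ i)⁻¹) := by
    intro i
    simp [uu, map_mul, map_pow, map_inv]
  have rr : ∀ d, (s * (h ^ d * s * (h ^ d)⁻¹)) ^ 2 = t → RR (mk h') (mk s') 0 d := by
    intro d hd
    unfold RR
    rw [huu, huu, ← map_mul, ← map_pow, hmk, hZmem]
    right
    apply Subtype.ext
    simpa using hd
  have hcar := isCar_uu (mk h') (mk s') hh9 hs3 (rr 1 p1) (rr 2 p2) (rr 3 p3) (rr 4 p4)
  obtain ⟨θ, hθ⟩ := exists_theta (fun i : Fin 9 => uu (mk h') (mk s') i) hcar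
  have hs'Z : s' ∉ Z := by
    intro hz
    rcases (hZmem s').mp hz with e | e
    · have e1 : s = 1 := congrArg Subtype.val e
      apply ht1
      rw [← p1, e1]
      simp
    · have e1 : s = t := congrArg Subtype.val e
      apply ht1
      have : t ^ 3 = 1 := by rw [← e1]; exact s3
      have e2 : t ^ 3 = t ^ 2 * t := pow_succ _ _
      rw [e2, ht2, one_mul] at this
      exact this
  haveI hsimple : IsSimpleGroup (alternatingGroup (Fin 9 ⊕ Bool)) :=
    alternatingGroup.isSimpleGroup (by simp)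
  have hθinj : Function.Injective θ := by
    rw [← MonoidHom.ker_eq_bot_iff]
    rcases (inferInstance : (θ.ker).Normal) |> IsSimpleGroup.eq_bot_or_eq_top_of_normal _ with e | e
    · exact e
    · exfalso
      have h1 : θ (cycA (0 : Fin 9)) = 1 := by
        have : cycA (0 : Fin 9) ∈ θ.ker := by rw [e]; trivial
        exact this
      rw [hθ] at h1
      have h2 : uu (mk h') (mk s') ((0 : Fin 9) : ℕ) = mk s' := by simp [uu]
      rw [h2] at h1
      exact hs'Z ((hmk s').mp h1)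
  have hcardC : Nat.card C = Nat.card Γ * 2 := by
    have := Subgroup.card_eq_card_quotient_mul_card_subgroup Z
    rw [hZcard] at this
    exact this
  have hfinC : Finite C := inferInstance
  haveI hfinΓ : Finite Γ := inferInstance
  have hrange : Nat.card θ.range = 19958400 := by
    rw [← card_A11]
    exact (Nat.card_congr (MonoidHom.ofInjective hθinj).toEquiv).symm
  have hsurj : Function.Surjective θ := by
    have h1 := Subgroup.card_mul_index θ.range
    rw [hrange] at h1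
    have h2 : Nat.card Γ < 39916800 := by
      have : Nat.card C < 79833600 := hc
      omega
    have h3 : θ.range.index ≠ 0 := Subgroup.index_ne_zero_of_finite
    have h4 : θ.range.index = 1 := by omega
    have h5 : θ.range = ⊤ := Subgroup.index_eq_one.mp h4
    exact MonoidHom.range_eq_top.mp h5
  let E : alternatingGroup (Fin 9 ⊕ Bool) ≃* Γ := MulEquiv.ofBijective θ ⟨hθinj, hsurj⟩
  have hE : ∀ a, E a = θ a := fun a => rfl
  refine ⟨E.symm.toMonoidHom.comp mk, ?_, ?_, ?_, ?_⟩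
  · intro a
    obtain ⟨y, hy⟩ := QuotientGroup.mk'_surjective Z (E a)
    refine ⟨y, ?_⟩
    show E.symm (mk y) = a
    have : mk y = E a := hy
    rw [this, MulEquiv.symm_apply_apply]
  · intro y
    have e1 : (E.symm.toMonoidHom.comp mk) y = 1 ↔ mk y = 1 := by
      show E.symm (mk y) = 1 ↔ mk y = 1
      exact map_eq_one_iff E.symm E.symm.injective
    rw [e1, hmk, hZmem]
    constructor
    · rintro (e | e)
      · exact Or.inl e
      · exact Or.inr (congrArg Subtype.val e)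
    · rintro (e | e)
      · exact Or.inl e
      · exact Or.inr (Subtype.ext e)
  · have h1 : Nat.card Γ = 19958400 := by
      rw [← card_A11]
      exact (Nat.card_congr E.toEquiv).symm
    show Nat.card C = 39916800
    rw [hcardC, h1]
  · intro q hq
    show E.symm (mk (uu h' s' q)) = cyA q
    have e0 : mk (uu h' s' q) = uu (mk h') (mk s') q := by
      rw [huu]
      rfl
    have e1 : (Fin.ofNat 9 q : ℕ) = q := Nat.mod_eq_of_lt hq
    have e2 : θ (cyA q) = uu (mk h') (mk s') q := by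
      have := hθ (Fin.ofNat 9 q)
      simp only [e1] at this
      exact this
    rw [e0, ← e2, ← hE, MulEquiv.symm_apply_apply]

/-- The data. -/
structure Dat (t : X) (π : Ce t →* AA) (a : ℕ → Ce t) : Prop where
  surj : Function.Surjective π
  ker : ∀ y : Ce t, π y = 1 ↔ y = 1 ∨ (y : X) = t
  card : Nat.card (Ce t) = 39916800
  ha : ∀ i, i < 3 → π (a i) = gA i
  t1 : t ≠ 1
  anti : (((a 1 * a 2 * (a 1 * a 2)) * (a 1 * a 2 * (a 1 * a 2)) : Ce t) : X) * (a 0 : X) =
    t * ((a 0 : X) * (((a 1 * a 2 * (a 1 * a 2)) * (a 1 * a 2 * (a 1 * a 2)) : Ce t) : X))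
  conj : ∀ i, i < 3 → ∃ c : X, c * t = (a i : X) * c

section

variable {t : X} {π : Ce t →* AA} {a : ℕ → Ce t}

/-- The subgroup of order `256`. -/
def S0 (π : Ce t →* AA) : Subgroup X := (PA.comap π).map (Ce t).subtype

theorem mem_S0 {x : X} : x ∈ S0 π ↔ ∃ hx : x ∈ Ce t, π ⟨x, hx⟩ ∈ PA := by
  constructor
  · rintro ⟨u, hu, rfl⟩
    exact ⟨u.2, hu⟩
  · rintro ⟨hx, h⟩
    exact ⟨⟨x, hx⟩, h, rfl⟩

theorem coe_mem_S0 {u : Ce t} (h : π u ∈ PA) : (u : X) ∈ S0 π := ⟨u, h, rfl⟩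

theorem card_S0 (D : Dat t π a) : Nat.card (S0 π) = 2 ^ 8 := by
  have h1 := Subgroup.card_mul_index (PA.comap π)
  rw [Subgroup.index_comap_of_surjective _ D.surj, D.card] at h1
  have h2 := Subgroup.card_mul_index PA
  rw [card_PA, card_A11] at h2
  have h3 : Nat.card (S0 π) = Nat.card (PA.comap π) :=
    (Nat.card_congr (Subgroup.equivMapOfInjective (PA.comap π) (Ce t).subtype (Subgroup.subtype_injective _)).toEquiv).symm
  have h4 : PA.index = 155925 := by omega
  rw [h4] at h1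
  rw [h3]
  omega

theorem pi_eq (D : Dat t π a) {u v : Ce t} (h : π u = π v) : (u : X) = v ∨ (u : X) = t * v := by
  have h1 : π (u * v⁻¹) = 1 := by
    rw [map_mul, map_inv, h, mul_inv_cancel]
  rcases (D.ker _).mp h1 with e | e
  · left
    exact congrArg Subtype.val (mul_inv_eq_one.mp e)
  · right
    have e' : (u : X) * (v : X)⁻¹ = t := e
    exact mul_inv_eq_iff_eq_mul.mp e'

theorem comm_t (u : Ce t) : (u : X) * t = t * u := Subgroup.mem_centralizer_singleton_iff.mp u.2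

theorem t_mem_Ce : t ∈ Ce t := cent_mem rfl

theorem t_mem (D : Dat t π a) : t ∈ S0 π := by
  refine mem_S0.mpr ⟨t_mem_Ce, ?_⟩
  rw [(D.ker _).mpr (Or.inr rfl)]
  exact PA.one_mem

theorem a_mem (D : Dat t π a) {i : ℕ} (hi : i < 3) : (a i : X) ∈ S0 π :=
  coe_mem_S0 (by rw [D.ha i hi]; exact gA_mem hi)

theorem pi_zh (D : Dat t π a) : π ((a 1 * a 2 * (a 1 * a 2)) * (a 1 * a 2 * (a 1 * a 2))) = zA := by
  simp only [map_mul]
  rw [D.ha 1 (by norm_num), D.ha 2 (by norm_num)]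
  rfl

/-- The centre of the subgroup. -/
theorem S0_central (D : Dat t π a) {x : X} (hx : x ∈ S0 π) (hne : x ≠ 1) (hc : ∀ s ∈ S0 π, s * x = x * s) : x = t := by
  obtain ⟨hxC, hπ⟩ := mem_S0.mp hx
  have hc' : ∀ s ∈ PA, π ⟨x, hxC⟩ * s = s * π ⟨x, hxC⟩ := by
    intro s hs
    obtain ⟨u, rfl⟩ := D.surj s
    have e : u * ⟨x, hxC⟩ = ⟨x, hxC⟩ * u := Subtype.ext (hc _ (coe_mem_S0 hs))
    rw [← map_mul, ← map_mul, e]
  rcases central_PA hπ hc' with h1 | h2
  · rcases (D.ker _).mp h1 with h | h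
    · exact absurd (congrArg Subtype.val h) hne
    · exact h
  · exfalso
    have hcomm := hc _ (a_mem D (i := 0) (by norm_num))
    have hanti := D.anti
    set Zh : Ce t := (a 1 * a 2 * (a 1 * a 2)) * (a 1 * a 2 * (a 1 * a 2)) with hZh
    have hpi : π ⟨x, hxC⟩ = π Zh := h2.trans (pi_zh D).symm
    apply D.t1
    have hA := comm_t (a 0)
    rcases pi_eq D hpi with e | e
    · have e' : x = Zh := e
      rw [e'] at hcomm
      rw [← hcomm] at hanti
      exact mul_eq_right.mp hanti.symm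
    · have e' : x = t * Zh := e
      rw [e'] at hcomm
      have e1 : (a 0 : X) * (t * Zh) = t * ((a 0 : X) * Zh) := by
        rw [← mul_assoc, hA, mul_assoc]
      have e2 : t * Zh * (a 0 : X) = t * (t * ((a 0 : X) * Zh)) := by
        rw [mul_assoc, hanti]
      rw [e1, e2] at hcomm
      have e3 := mul_left_cancel hcomm
      exact mul_eq_right.mp e3.symm

/-- The closed subgroups. -/
theorem closed_dich (D : Dat t π a) (T : Subgroup X) (hT : T ≤ S0 π)
    (hcl : ∀ x ∈ T, ∀ g : X, g * x * g⁻¹ ∈ S0 π → g * x * g⁻¹ ∈ T) : T = ⊥ ∨ T = S0 π := by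
  by_cases hb : T = ⊥
  · exact Or.inl hb
  right
  have hP : IsPGroup 2 (S0 π) := IsPGroup.of_card (card_S0 D)
  let N : Subgroup (S0 π) := T.subgroupOf (S0 π)
  haveI hN : N.Normal := ⟨fun n hn g => by
    have h1 : (n : X) ∈ T := Subgroup.mem_subgroupOf.mp hn
    refine Subgroup.mem_subgroupOf.mpr ?_
    exact hcl _ h1 _ (S0 π |>.mul_mem (S0 π |>.mul_mem g.2 n.2) (S0 π |>.inv_mem g.2))⟩
  have hne : N ≠ ⊥ := by
    intro hNb
    apply hb
    rw [eq_bot_iff]
    intro x hx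
    have h1 : (⟨x, hT hx⟩ : S0 π) ∈ N := Subgroup.mem_subgroupOf.mpr hx
    rw [hNb, Subgroup.mem_bot] at h1
    exact congrArg Subtype.val h1
  haveI : Fact (Nat.Prime 2) := ⟨Nat.prime_two⟩
  obtain ⟨z, hzN, hz1, hzc⟩ := Cfsg.Agent.Lib.PuigBasic.exists_mem_center_of_normal hP N hne
  have hxT : (z : X) ∈ T := Subgroup.mem_subgroupOf.mp hzN
  have hx1 : (z : X) ≠ 1 := fun e => hz1 (Subtype.ext e)
  have hxc : ∀ s ∈ S0 π, s * (z : X) = (z : X) * s := by
    intro s hs
    have := (Subgroup.mem_center_iff.mp hzc) ⟨s, hs⟩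
    exact congrArg Subtype.val this
  have ht := S0_central D z.2 hx1 hxc
  have htT : t ∈ T := ht ▸ hxT
  have haT : ∀ i, i < 3 → (a i : X) ∈ T := by
    intro i hi
    obtain ⟨c, hc⟩ := D.conj i hi
    have e : (a i : X) = c * t * c⁻¹ := by
      rw [hc, mul_inv_cancel_right]
    rw [e]
    apply hcl t htT c
    rw [← e]
    exact a_mem D hi
  apply le_antisymm hT
  intro y hy
  obtain ⟨hyC, hπ⟩ := mem_S0.mp hy
  let K : Subgroup (Ce t) := T.comap (Ce t).subtype
  have hmap : PA ≤ K.map π := by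
    rw [PA, Subgroup.closure_le]
    rintro _ ⟨i, rfl⟩
    exact ⟨a i, haT i i.2, D.ha i i.2⟩
  obtain ⟨w, hwK, hw⟩ := hmap hπ
  have hwT : (w : X) ∈ T := hwK
  rcases pi_eq D hw with e | e
  · have e' : (w : X) = y := e
    exact e' ▸ hwT
  · have e' : (w : X) = t * y := e
    have : y = t⁻¹ * w := by rw [e']; group
    rw [this]
    exact T.mul_mem (T.inv_mem htT) hwT

/-- The normaliser. -/
theorem norm_mem (D : Dat t π a) {g : X} (hn : ∀ s ∈ S0 π, g * s * g⁻¹ ∈ S0 π) : g ∈ S0 π := by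
  have hn' := conj_inv_mem (S0 π) g hn
  have h1 : g * t * g⁻¹ ∈ S0 π := hn t (t_mem D)
  have h2 : g * t * g⁻¹ ≠ 1 := by
    intro e
    apply D.t1
    rw [mul_inv_eq_one] at e
    simpa using e
  have h3 : ∀ s ∈ S0 π, s * (g * t * g⁻¹) = (g * t * g⁻¹) * s := by
    intro s hs
    obtain ⟨hC, -⟩ := mem_S0.mp (hn' s hs)
    have c := comm_t (⟨_, hC⟩ : Ce t)
    have c' : g⁻¹ * s * g * t = t * (g⁻¹ * s * g) := c
    calc s * (g * t * g⁻¹) = g * (g⁻¹ * s * g * t) * g⁻¹ := by group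
      _ = g * (t * (g⁻¹ * s * g)) * g⁻¹ := by rw [c']
      _ = (g * t * g⁻¹) * s := by group
  have h4 := S0_central D h1 h2 h3
  have hg : g ∈ Ce t := by
    apply cent_mem
    rwa [mul_inv_eq_iff_eq_mul] at h4
  have hnorm : ∀ s ∈ PA, π ⟨g, hg⟩ * s * (π ⟨g, hg⟩)⁻¹ ∈ PA := by
    intro s hs
    obtain ⟨u, rfl⟩ := D.surj s
    obtain ⟨hx, hπ⟩ := mem_S0.mp (hn _ (coe_mem_S0 hs))
    have e : (⟨g * u * g⁻¹, hx⟩ : Ce t) = ⟨g, hg⟩ * u * (⟨g, hg⟩ : Ce t)⁻¹ := Subtype.ext rfl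
    rw [e, map_mul, map_mul, map_inv] at hπ
    exact hπ
  exact mem_S0.mpr ⟨hg, norm_PA hnorm⟩

/-- The fusion system. -/
theorem fus_main (D : Dat t π a) {Y : Type*} [Group Y] [Finite Y] (ι : Y →* X) (hι : Function.Injective ι)
    (hr : ι.range = ⊤) (m : ℕ) (hcard : Nat.card Y = 2 ^ 8 * m) (hm : ¬ 2 ∣ m) (S : Sylow 2 Y) :
    (Cfsg.groupFusionSystem (S : Subgroup Y)).IsSimple 2 := by
  haveI : Fact (Nat.Prime 2) := ⟨Nat.prime_two⟩
  refine Cfsg.Agent.Lib.FusionEmbed.isSimple_of_embedding 2 ι hι (S0 π) (by rw [hr]; exact le_top) 8 m (card_S0 D) hcard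
    hm ?_ ?_ 1 (Subgroup.one_mem _) ?_ (S0 π) le_rfl ?_ ∅ (Set.empty_subset _) (fun u hu => absurd hu (Set.notMem_empty u))
    (Subgroup.one_mem _) ?_ S
  · intro hb
    have h1 := card_S0 D
    rw [hb] at h1
    simp at h1
  · intro T hT hcl
    exact closed_dich D T hT fun x hx g hg => hcl x hx g (by rw [hr]; trivial) hg
  · intro s hs
    simpa using hs
  · intro c _ hcomm
    refine norm_mem D fun s hs => ?_
    rw [hcomm s hs, mul_inv_cancel_right]
    exact hs
  · intro g _ hn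
    exact Subgroup.subset_closure (Or.inl (norm_mem D hn))

end

theorem map_uu {Γ Γ' : Type*} [Group Γ] [Group Γ'] (f : Γ →* Γ') (h s : Γ) (q : ℕ) : f (uu h s q) = uu (f h) (f s) q := by
  simp [uu]

theorem map_Wu {Γ Γ' : Type*} [Group Γ] [Group Γ'] (f : Γ →* Γ') (h s : Γ) (l : List ℕ) :
    f (Wu h s l) = Wu (f h) (f s) l := by
  induction l with
  | nil => simp [Wu]
  | cons q l ih => rw [Wu_cons, Wu_cons, map_mul, ih, map_uu]

/-- A list of three-cycles and its image. -/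
theorem pi_Wu {Γ : Type*} [Group Γ] (π : Γ →* AA) {h s : Γ} (hc : ∀ q, q < 9 → π (uu h s q) = cyA q) (l : List ℕ)
    (hl : ∀ q ∈ l, q < 9) : π (Wu h s l) = pwA l := by
  induction l with
  | nil => simp [Wu, pwA]
  | cons q l ih =>
    rw [Wu_cons, map_mul, ih (fun k hk => hl k (List.mem_cons_of_mem _ hk)), hc q (hl q (by simp))]
    rfl

/-- The final statement for a group with the data. -/
theorem fus_data_main {t h s : X} (ht2 : t ^ 2 = 1) (ht1 : t ≠ 1) (hh : h * t = t * h) (hs : s * t = t * s)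
    (h9 : h ^ 9 = 1 ∨ h ^ 9 = t) (s3 : s ^ 3 = 1)
    (p1 : (s * (h ^ 1 * s * (h ^ 1)⁻¹)) ^ 2 = t) (p2 : (s * (h ^ 2 * s * (h ^ 2)⁻¹)) ^ 2 = t)
    (p3 : (s * (h ^ 3 * s * (h ^ 3)⁻¹)) ^ 2 = t) (p4 : (s * (h ^ 4 * s * (h ^ 4)⁻¹)) ^ 2 = t)
    (hc : Nat.card (Subgroup.centralizer ({t} : Set X)) < 79833600)
    (hfus : (Wu h s (lW 1) * Wu h s (lW 2) * (Wu h s (lW 1) * Wu h s (lW 2)) * (Wu h s (lW 1) * Wu h s (lW 2) * (Wu h s (lW 1) * Wu h s (lW 2)))) * Wu h s (lW 0) =
      t * (Wu h s (lW 0) * (Wu h s (lW 1) * Wu h s (lW 2) * (Wu h s (lW 1) * Wu h s (lW 2)) * (Wu h s (lW 1) * Wu h s (lW 2) * (Wu h s (lW 1) * Wu h s (lW 2))))) ∧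
      (∃ c, c * t = Wu h s (lW 0) * c) ∧ (∃ c, c * t = Wu h s (lW 1) * c) ∧ (∃ c, c * t = Wu h s (lW 2) * c))
    {Y : Type*} [Group Y] [Finite Y] (ι : Y →* X) (hι : Function.Injective ι)
    (hr : ι.range = ⊤) (m : ℕ) (hcard : Nat.card Y = 2 ^ 8 * m) (hm : ¬ 2 ∣ m) (S : Sylow 2 Y) :
    (Cfsg.groupFusionSystem (S : Subgroup Y)).IsSimple 2 := by
  obtain ⟨π, hsurj, hker, hcardC, hcyc⟩ := exists_pi ht2 ht1 hh hs h9 s3 p1 p2 p3 p4 hc
  let h' : Ce t := ⟨h, cent_mem hh⟩
  let s' : Ce t := ⟨s, cent_mem hs⟩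
  let a : ℕ → Ce t := fun i => Wu h' s' (lW i)
  have hval : ∀ i, ((a i : Ce t) : X) = Wu h s (lW i) := fun i => map_Wu (Ce t).subtype h' s' (lW i)
  have hl : ∀ i, i < 3 → ∀ q ∈ lW i, q < 9 := by
    intro i hi
    interval_cases i <;> decide
  obtain ⟨h0, h1, h2, h3⟩ := hfus
  have D : Dat t π a := by
    refine ⟨hsurj, hker, hcardC, ?_, ht1, ?_, ?_⟩
    · intro i hi
      exact pi_Wu π hcyc _ (hl i hi)
    · simp only [Subgroup.coe_mul, hval]
      exact h0
    · intro i hi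
      rw [hval]
      interval_cases i
      · exact h1
      · exact h2
      · exact h3
  exact fus_main D ι hι hr m hcard hm S

end Cfsg.Agent.Lib.LyFusMain
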