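import Mathlib
import Cfsg.Prelude.Def_MonsterType
import Cfsg.Agent.Lib.M24CentIso

set_option autoImplicit false
set_option linter.unusedVariables false
set_option linter.unusedSectionVars false

/-!
# Structure of the centraliser in `M24` of an involution with fixed octad
-/

namespace Cfsg.Agent.Lib.M24Cent
open Cfsg Cfsg.Agent.Lib.Golay Cfsg.Agent.Lib.TvCent

open scoped Pointwise

/-- the transvection in its centraliser -/
def y0C : ↥C0 := ⟨s0, Subgroup.mem_centralizer_singleton_iff.2 rfl⟩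

theorem y0C_eq : y0C = (y0 : ↥C0) := y0_coe.symm

theorem y0C_ne : y0C ≠ 1 := by
  rw [y0C_eq]
  intro h
  have h2 : y0 = 1 := Subtype.ext h
  have := (mkY_inj (h2.trans mkY_one.symm)).1
  exact one_ne_zero this

/-- the embedding of the centraliser of the transvection in `M24` -/
noncomputable def j0 : ↥C0 →* ↥M24 := CZ.subtype.comp PsiEquiv.symm.toMonoidHom

theorem j0_injective : Function.Injective j0 :=
  (Subgroup.subtype_injective _).comp PsiEquiv.symm.injective

theorem j0_range : j0.range = CZ := by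
  ext x
  constructor
  · rintro ⟨y, rfl⟩
    exact (PsiEquiv.symm y).2
  · intro hx
    exact ⟨PsiEquiv ⟨x, hx⟩, by simp [j0]⟩

/-- the element `z0` in its centraliser -/
noncomputable def z0C : ↥CZ := ⟨z0, Subgroup.mem_centralizer_singleton_iff.2 rfl⟩

theorem stabHom_z0C : stabHom z0C = zS := by
  apply Subtype.ext
  exact z0_eq_c

theorem Psi_z0C : PsiEquiv z0C = y0C := by
  apply Subtype.ext
  rw [PsiEquiv_coe, stabHom_z0C, Phi_zS]
  rfl

theorem j0_y0C : j0 y0C = z0 := by
  change ((PsiEquiv.symm y0C : ↥CZ) : ↥M24) = z0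
  rw [← Psi_z0C, MulEquiv.symm_apply_apply]
  rfl

/-- the second element of the pointwise stabiliser of the octad -/
def t1 : T := ![0, 1, 0, 0]

theorem c_t1_ne : c t1 ≠ 1 := by
  intro h
  have : t1 = 0 := c_inj (h.trans c_zero.symm)
  revert this
  decide

theorem c_t1_sq : c t1 ^ 2 = 1 := by rw [pow_two, c_self]

theorem c_t1_fix : 5 ≤ (Finset.univ.filter fun p => c t1 p = p).card := by
  have h1 : O0 ⊆ Finset.univ.filter fun p => c t1 p = p := by
    intro p hp
    exact Finset.mem_filter.2 ⟨Finset.mem_univ _, c_fix t1 hp⟩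
  have h2 := Finset.card_le_card h1
  have h3 : O0.card = 8 := by
    have := O0_mem_octads
    rw [mem_octads_iff] at this
    exact this.2
  omega

theorem c_t1_ne_z0 : c t1 ≠ decode Y2A := by
  intro h
  rw [← c_e0] at h
  have := c_inj h
  revert this
  decide

/-- the element `c t1` in `M24` -/
noncomputable def e1 : ↥M24 := ⟨c t1, c_mem t1⟩

theorem e1_mem_CZ : e1 ∈ CZ := by
  rw [Subgroup.mem_centralizer_singleton_iff]
  apply Subtype.ext
  change c t1 * (z0 : Equiv.Perm GolayPt) = z0 * c t1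
  rw [z0_eq_c, c_comm]

theorem stabHom_e1 : stabHom ⟨e1, e1_mem_CZ⟩ = cS t1 := rfl

theorem Psi_e1_mem : PsiEquiv ⟨e1, e1_mem_CZ⟩ ∈ Q0 := by
  rw [mem_Q0, PsiEquiv_coe, stabHom_e1, Phi_coe, Mat_cS]
  exact blk_mkQ _ _ _ _ _ _ _

theorem e1_mem_map : e1 ∈ Q0.map j0 := by
  refine ⟨_, Psi_e1_mem, ?_⟩
  change ((PsiEquiv.symm (PsiEquiv ⟨e1, e1_mem_CZ⟩) : ↥CZ) : ↥M24) = e1
  rw [MulEquiv.symm_apply_apply]

theorem exists_conj_e1 : ∃ g : ↥M24, g * z0 * g⁻¹ = e1 := by
  obtain ⟨k, hk, e⟩ := class2A (c_mem t1) c_t1_sq c_t1_ne c_t1_fix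
  exact ⟨⟨k, hk⟩, Subtype.ext e.symm⟩

theorem e1_ne : e1 ≠ z0 := by
  intro h
  exact c_t1_ne_z0 (congrArg Subtype.val h)

/-- the model for an arbitrary involution with fixed octad -/
theorem exists_model (z : ↥M24) (hz : orderOf z = 2)
    (hfix : (Finset.univ.filter fun p : GolayPt => (z : Equiv.Perm GolayPt) p = p) ∈ octads) :
    ∃ j : ↥C0 →* ↥M24, Function.Injective j ∧ j.range = Subgroup.centralizer ({z} : Set ↥M24) ∧ j y0C = z ∧
      ∃ g : ↥M24, g * z * g⁻¹ ∈ Q0.map j ∧ g * z * g⁻¹ ≠ z := by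
  have h2 : (z : Equiv.Perm GolayPt) ^ 2 = 1 := by
    have := pow_orderOf_eq_one z
    rw [hz] at this
    exact congrArg Subtype.val this
  have h1 : (z : Equiv.Perm GolayPt) ≠ 1 := by
    intro h
    have : z = 1 := Subtype.ext h
    rw [this] at hz
    simp at hz
  have h5 : 5 ≤ (Finset.univ.filter fun p : GolayPt => (z : Equiv.Perm GolayPt) p = p).card := by
    rw [mem_octads_iff] at hfix
    omega
  obtain ⟨k, hk, e⟩ := class2A z.2 h2 h1 h5
  let k' : ↥M24 := ⟨k, hk⟩
  have hzk : z = k' * z0 * k'⁻¹ := Subtype.ext e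
  let κ : ↥M24 ≃* ↥M24 := MulAut.conj k'
  have hκ : ∀ x, κ x = k' * x * k'⁻¹ := fun x => rfl
  have hinj : Function.Injective (κ.toMonoidHom.comp j0) := κ.injective.comp j0_injective
  refine ⟨κ.toMonoidHom.comp j0, hinj, ?_, ?_, ?_⟩
  · ext x
    rw [Subgroup.mem_centralizer_singleton_iff]
    constructor
    · rintro ⟨y, rfl⟩
      have hy : j0 y ∈ CZ := by
        rw [← j0_range]
        exact ⟨y, rfl⟩
      rw [Subgroup.mem_centralizer_singleton_iff] at hy
      change k' * j0 y * k'⁻¹ * z = z * (k' * j0 y * k'⁻¹)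
      rw [hzk]
      calc k' * j0 y * k'⁻¹ * (k' * z0 * k'⁻¹) = k' * (j0 y * z0) * k'⁻¹ := by group
        _ = k' * (z0 * j0 y) * k'⁻¹ := by rw [hy]
        _ = _ := by group
    · intro hx
      have hy : k'⁻¹ * x * k' ∈ CZ := by
        rw [Subgroup.mem_centralizer_singleton_iff]
        rw [hzk] at hx
        have h3 : x * k' * z0 = k' * z0 * k'⁻¹ * x * k' := by
          calc x * k' * z0 = x * (k' * z0 * k'⁻¹) * k' := by group
            _ = k' * z0 * k'⁻¹ * x * k' := by rw [hx]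
        calc k'⁻¹ * x * k' * z0 = k'⁻¹ * (x * k' * z0) := by group
          _ = k'⁻¹ * (k' * z0 * k'⁻¹ * x * k') := by rw [h3]
          _ = z0 * (k'⁻¹ * x * k') := by group
      rw [← j0_range] at hy
      obtain ⟨y, hy⟩ := hy
      refine ⟨y, ?_⟩
      change k' * j0 y * k'⁻¹ = x
      rw [hy]
      group
  · change k' * j0 y0C * k'⁻¹ = z
    rw [j0_y0C, hzk]
  · obtain ⟨g, hg⟩ := exists_conj_e1
    refine ⟨κ g, ?_, ?_⟩
    · have h3 : κ g * z * (κ g)⁻¹ = κ e1 := by
        rw [← hg, hzk, map_mul, map_mul, map_inv, hκ z0]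
      rw [h3]
      obtain ⟨y, hy, e2⟩ := e1_mem_map
      exact ⟨y, hy, by
        change κ (j0 y) = κ e1
        rw [e2]⟩
    · intro h
      have h3 : κ g * z * (κ g)⁻¹ = κ e1 := by
        rw [← hg, hzk, map_mul, map_mul, map_inv, hκ z0]
      rw [h3, hzk, ← hκ z0] at h
      exact e1_ne (κ.injective h)

/-! ### transport of the structure -/

theorem pCore_map_le {G H : Type*} [Group G] [Group H] [Finite G] [Finite H] (e : G ≃* H) (p : ℕ) [Fact p.Prime] :
    (pCore p G).map e.toMonoidHom ≤ pCore p H := by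
  apply Cfsg.Agent.Lib.PCore.le_pCore
  · have hP : (pCore p G).Normal :=
      haveI := Cfsg.Agent.Lib.PCore.pCore_characteristic (G := G) p
      Subgroup.normal_of_characteristic _
    exact hP.map _ e.surjective
  · exact (Cfsg.Agent.Lib.PCore.isPGroup_pCore p).map _

theorem pCore_map_equiv {G H : Type*} [Group G] [Group H] [Finite G] [Finite H] (e : G ≃* H) (p : ℕ) [Fact p.Prime] :
    (pCore p G).map e.toMonoidHom = pCore p H := by
  apply le_antisymm (pCore_map_le e p)
  intro x hx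
  refine ⟨e.symm x, pCore_map_le e.symm p ⟨x, hx, rfl⟩, ?_⟩
  simp

section Transport

variable {X : Type*} [Group X] [Finite X] {z : X} (j : ↥C0 →* X) (hj : Function.Injective j)
  (hr : j.range = Subgroup.centralizer ({z} : Set X)) (hz : j y0C = z)

include hj hr hz

theorem pCore_eq_map :
    (pCore 2 ↥(Subgroup.centralizer ({z} : Set X))).map (Subgroup.centralizer ({z} : Set X)).subtype = Q0.map j := by
  let ψ : ↥C0 ≃* ↥(Subgroup.centralizer ({z} : Set X)) :=
    (MonoidHom.ofInjective hj).trans (MulEquiv.subgroupCongr hr)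
  have hψ : ∀ c, ((ψ c : ↥(Subgroup.centralizer ({z} : Set X))) : X) = j c := fun c => rfl
  rw [← pCore_map_equiv ψ 2, pCore_C0]
  ext x
  constructor
  · rintro ⟨_, ⟨c, hc, rfl⟩, rfl⟩
    exact ⟨c, hc, rfl⟩
  · rintro ⟨c, hc, rfl⟩
    exact ⟨ψ c, ⟨c, hc, rfl⟩, rfl⟩

theorem extraspecial_map : IsExtraspecial 2 ↥(Q0.map j) :=
  Cfsg.Agent.Lib.LargeCent.isExtraspecial_of_equiv (Q0.equivMapOfInjective j hj) isExtraspecial_Q0

theorem card_map : Nat.card ↥(Q0.map j) = 2 ^ 7 := by
  rw [← card_Q0]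
  exact Nat.card_congr (Q0.equivMapOfInjective j hj).toEquiv.symm

theorem map_le_cent (c : ↥C0) : j c * z = z * j c := by
  have h : j c ∈ Subgroup.centralizer ({z} : Set X) := by
    rw [← hr]
    exact ⟨c, rfl⟩
  exact Subgroup.mem_centralizer_singleton_iff.1 h

theorem large_map (g : X) (hg : g * z * g⁻¹ ∈ Q0.map j) (hgne : g * z * g⁻¹ ≠ z) :
    IsLargeExtraspecial (Q0.map j) := by
  have hzQ : z ∈ Q0.map j := by
    refine ⟨y0C, ?_, hz⟩
    rw [y0C_eq]
    exact y0.2
  refine Cfsg.Agent.Lib.LargeQuot.large_of_elements (extraspecial_map j hj hr hz) 3 (by norm_num)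
    (by rw [card_map j hj hr hz]) hzQ ?_ ?_ ?_ ?_ g hg hgne
  · intro h
    apply y0C_ne
    apply hj
    rw [hz, h, map_one]
  · rintro y ⟨c, hc, rfl⟩
    exact map_le_cent j hj hr hz c
  · intro x hx
    have h1 : x * z = z * x := (hx z hzQ).symm
    have h2 : x ∈ j.range := by
      rw [hr]
      exact Subgroup.mem_centralizer_singleton_iff.2 h1
    obtain ⟨c, rfl⟩ := h2
    have h3 := cent_Q0 c (fun y => by
      apply hj
      rw [map_mul, map_mul]
      exact hx _ ⟨y, y.2, rfl⟩)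
    rcases h3 with rfl | h3
    · left
      exact map_one j
    · right
      rw [h3, ← y0C_eq, hz]
  · intro x hx
    have h2 : x ∈ j.range := by
      rw [hr]
      exact Subgroup.mem_centralizer_singleton_iff.2 hx
    obtain ⟨c, rfl⟩ := h2
    rw [Subgroup.mem_normalizer_iff]
    intro h
    constructor
    · rintro ⟨q, hq, rfl⟩
      refine ⟨c * q * c⁻¹, (inferInstance : Q0.Normal).conj_mem q hq c, ?_⟩
      simp [map_mul, map_inv]
    · rintro ⟨q, hq, e⟩
      refine ⟨c⁻¹ * q * c, ?_, ?_⟩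
      · have := (inferInstance : Q0.Normal).conj_mem q hq c⁻¹
        simpa using this
      · apply mul_right_cancel (b := (j c)⁻¹)
        apply mul_left_cancel (a := j c)
        have e' : j q = j c * h * (j c)⁻¹ := e
        simp only [map_mul, map_inv]
        rw [e']
        group

/-- the elementary abelian subgroup -/
theorem exists_elem :
    ∃ E : Subgroup X, E ≤ Q0.map j ∧ IsElementaryAbelian 2 E ∧ Nat.card ↥E = 2 ^ 4 := by
  let f : Multiplicative (Fin 4 → ZMod 2) →* X := (j.comp Q0.subtype).comp eHom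
  have hf : Function.Injective f := hj.comp ((Subgroup.subtype_injective _).comp eHom_injective)
  refine ⟨f.range, ?_, ⟨⟨⟨?_⟩⟩, ?_⟩, ?_⟩
  · rintro _ ⟨t, rfl⟩
    exact ⟨(eHom t : ↥Q0), (eHom t).2, rfl⟩
  · rintro ⟨_, t, rfl⟩ ⟨_, t', rfl⟩
    apply Subtype.ext
    change f t * f t' = f t' * f t
    rw [← map_mul, ← map_mul, mul_comm]
  · rintro _ ⟨t, rfl⟩
    rw [← map_pow]
    have : t ^ 2 = 1 := by
      apply Multiplicative.toAdd.injective
      funext i
      change (2 : ℕ) • Multiplicative.toAdd t i = 0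
      rw [two_nsmul, CharTwo.add_self_eq_zero]
    rw [this, map_one]
  · rw [← Nat.card_congr (MonoidHom.ofInjective hf).toEquiv]
    simp [Nat.card_eq_fintype_card, ZMod.card]

/-- the complement -/
theorem exists_compl :
    ∃ K : Subgroup X, K ≤ Subgroup.centralizer ({z} : Set X) ∧ Q0.map j ⊓ K = ⊥ ∧
      Q0.map j ⊔ K = Subgroup.centralizer ({z} : Set X) ∧ Nonempty (↥K ≃* Matrix.SpecialLinearGroup (Fin 3) (ZMod 2)) := by
  refine ⟨K0.map j, ?_, ?_, ?_, ⟨(K0.equivMapOfInjective j hj).symm.trans K0Equiv⟩⟩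
  · rintro _ ⟨c, _, rfl⟩
    rw [← hr]
    exact ⟨c, rfl⟩
  · rw [← Subgroup.map_inf _ _ _ hj, Q0_inf_K0, Subgroup.map_bot]
  · rw [← Subgroup.map_sup, Q0_sup_K0, ← hr, MonoidHom.range_eq_map]

end Transport

end Cfsg.Agent.Lib.M24Cent
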