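import Mathlib
import Cfsg.Prelude.Def_Transfer

set_option autoImplicit false
set_option maxRecDepth 100000
set_option linter.unusedVariables false
set_option linter.unusedSectionVars false

/-!
# The quotient of the unitriangular group `UT₅(2)` by its centre

A group with a bijective numbering by `0, …, 511` such that the product is computed by the explicit function `mulC`.
-/

namespace Cfsg.Agent.Lib.UT5Quot
open Cfsg

/-- the bit of a number -/
def b (c k : ℕ) : ℕ := Nat.land (Nat.shiftRight c k) 1

/-- the correction term of the product -/
def corr (x y : ℕ) : ℕ :=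
  Nat.add (Nat.mul 2 (Nat.land (b x 0) (b y 3)))
    (Nat.add (Nat.mul 4 (Nat.xor (Nat.land (b x 0) (b y 4)) (Nat.land (b x 1) (b y 6))))
      (Nat.add (Nat.mul 16 (Nat.land (b x 3) (b y 6)))
        (Nat.add (Nat.mul 32 (Nat.xor (Nat.land (b x 3) (b y 7)) (Nat.land (b x 4) (b y 8))))
          (Nat.mul 128 (Nat.land (b x 6) (b y 8))))))

/-- the product -/
def mulC (x y : ℕ) : ℕ := Nat.xor (Nat.xor x y) (corr x y)

/-- commuting numbers -/
def cm (x y : ℕ) : Bool := Nat.beq (mulC x y) (mulC y x)

/-- all the numbers -/
def L : List ℕ := List.range 512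

theorem mem_L {n : ℕ} : n ∈ L ↔ n < 512 := List.mem_range

/-- the central elements -/
def centL : List ℕ := [0, 4, 32, 36]

/-- the non-central elements with at most two conjugates -/
def lgL : List ℕ := [2, 6, 34, 38, 128, 132, 160, 164]

theorem check_cent1 : centL.all (fun x => L.all (cm x)) = true := by decide +kernel

theorem check_cent2 : L.all (fun x => !(L.all (cm x)) || centL.contains x) = true := by decide +kernel

theorem check_small : L.all (fun x => centL.contains x || lgL.contains x || Nat.blt (L.filter (cm x)).length 256) = true := by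
  decide +kernel

/-- the elements commuting with the centraliser of `x` -/
def dblC (x : ℕ) : List ℕ := L.filter (fun x' => L.all (fun y => !(cm x y) || cm x' y))

theorem check_dbl : lgL.all (fun x => Nat.ble (dblC x).length 8) = true := by decide +kernel

/-- the image in the quotient of order 8 -/
def rho (x : ℕ) : ℕ := Nat.add (b x 3) (Nat.add (Nat.mul 2 (b x 4)) (Nat.mul 4 (b x 6)))

/-- the product in the quotient of order 8 -/
def mulD (r s : ℕ) : ℕ :=
  Nat.add (Nat.xor (b r 0) (b s 0))
    (Nat.add (Nat.mul 2 (Nat.xor (Nat.xor (b r 1) (b s 1)) (Nat.land (b r 0) (b s 2))))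
      (Nat.mul 4 (Nat.xor (b r 2) (b s 2))))

theorem check_rho : L.all (fun x => L.all (fun y => Nat.beq (rho (mulC x y)) (mulD (rho x) (rho y)))) = true := by
  decide +kernel

/-- the numbers with given image -/
def R8 : List ℕ := List.range 8

/-- the elementary abelian normal subgroup -/
def NL : List ℕ := L.filter (fun x => Nat.beq (rho x) 0)

theorem NL_length : NL.length = 64 := by decide +kernel

theorem check_NL_comm : NL.all (fun x => NL.all (cm x)) = true := by decide +kernel

theorem check_NL_sq : NL.all (fun x => Nat.beq (mulC x x) 0) = true := by decide +kernel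

/-- representatives of the cosets -/
def rep (r : ℕ) : ℕ := Nat.add (Nat.mul 8 (b r 0)) (Nat.add (Nat.mul 16 (b r 1)) (Nat.mul 64 (b r 2)))

theorem check_rep : NL.all (fun n => L.all (fun a => cm n a == cm n (rep (rho a)))) = true := by
  decide +kernel

/-- the part of the normal subgroup commuting with a coset -/
def CN (r : ℕ) : List ℕ := NL.filter (fun n => cm n (rep r))

theorem check_CN1 : R8.all (fun r => Nat.beq r 0 || Nat.ble (CN r).length 16) = true := by decide +kernel

/-- the part of the normal subgroup commuting with two cosets -/
def CN2 (r s : ℕ) : List ℕ := (CN r).filter (fun n => cm n (rep s))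

theorem check_CN2 : R8.all (fun r => R8.all (fun s => Nat.beq r 0 || Nat.beq s 0 || Nat.beq r s ||
    !(Nat.beq (mulD r s) (mulD s r)) || Nat.ble (CN2 r s).length 8)) = true := by decide +kernel

theorem check_D : mulD 1 4 ≠ mulD 4 1 := by decide +kernel

end Cfsg.Agent.Lib.UT5Quot
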