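import Mathlib
import Cfsg.Prelude.Def_Transfer
import Cfsg.Agent.Lib.UT5Quot

set_option autoImplicit false
set_option linter.unusedVariables false
set_option linter.unusedSectionVars false

/-!
# Subgroups of the quotient of `UT₅(2)` by its centre
-/

namespace Cfsg.Agent.Lib.UT5Quot
open Cfsg

/-- a coatom of a finite 2-group has index 2 -/
theorem index_coatom {S : Type*} [Group S] [Finite S] (h2 : IsPGroup 2 S) {M : Subgroup S} (hM : IsCoatom M) :
    M.index = 2 := by
  have hn : Group.IsNilpotent S := h2.isNilpotent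
  have hN : M.Normal := Subgroup.NormalizerCondition.normal_of_coatom M Group.normalizerCondition_of_isNilpotent hM
  have hq : IsPGroup 2 (S ⧸ M) := h2.to_quotient M
  obtain ⟨k, hk⟩ := IsPGroup.iff_card.1 hq
  have hne : Nat.card (S ⧸ M) ≠ 1 := by
    intro h
    have : M.index = 1 := h
    exact hM.1 (Subgroup.index_eq_one.1 this)
  have hk0 : k ≠ 0 := by
    rintro rfl
    exact hne (by simpa using hk)
  have hdvd : 2 ^ 1 ∣ Nat.card (S ⧸ M) := by
    rw [hk]
    exact pow_dvd_pow 2 (Nat.one_le_iff_ne_zero.2 hk0)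
  have : Fact (Nat.Prime 2) := ⟨Nat.prime_two⟩
  obtain ⟨K, hK⟩ := Sylow.exists_subgroup_card_pow_prime (G := S ⧸ M) 2 hdvd
  let q := QuotientGroup.mk' M
  have hlt : M < K.comap q := by
    refine lt_of_le_of_ne ?_ ?_
    · intro x hx
      have : q x = 1 := (QuotientGroup.eq_one_iff x).2 hx
      change q x ∈ K
      rw [this]
      exact K.one_mem
    · intro e
      have h1 : K = ⊥ := by
        rw [eq_bot_iff]
        intro g hg
        obtain ⟨x, rfl⟩ := QuotientGroup.mk'_surjective M g
        have : x ∈ K.comap q := hg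
        rw [← e] at this
        exact (Subgroup.mem_bot).2 ((QuotientGroup.eq_one_iff x).2 this)
      rw [h1] at hK
      simp at hK
  have htop := hM.2 _ hlt
  have hKtop : K = ⊤ := by
    rw [eq_top_iff]
    intro g _
    obtain ⟨x, rfl⟩ := QuotientGroup.mk'_surjective M g
    have : x ∈ K.comap q := by rw [htop]; exact Subgroup.mem_top x
    exact this
  rw [hKtop, Subgroup.card_top] at hK
  change Nat.card (S ⧸ M) = 2
  simpa using hK

/-- a numbering of the group -/
structure Coded {S : Type*} [Group S] (code : S → ℕ) : Prop where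
  inj : Function.Injective code
  lt : ∀ x, code x < 512
  surj : ∀ n, n < 512 → ∃ x, code x = n
  mul : ∀ x y, code (x * y) = mulC (code x) (code y)
  one : code 1 = 0

section
variable {S : Type*} [Group S] {code : S → ℕ} (hc : Coded code)
include hc

theorem Coded.comm_iff (x y : S) : x * y = y * x ↔ cm (code x) (code y) = true := by
  constructor
  · intro h
    have := congrArg code h
    rw [hc.mul, hc.mul] at this
    rw [cm, this]
    exact Nat.beq_refl _
  · intro h
    apply hc.inj
    rw [hc.mul, hc.mul]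
    exact Nat.eq_of_beq_eq_true h

theorem Coded.finite : Finite S := Finite.of_injective (fun x => (⟨code x, hc.lt x⟩ : Fin 512)) (by
  intro a b h
  exact hc.inj (congrArg Fin.val h))

theorem Coded.card : Nat.card S = 512 := by
  have e : S ≃ Fin 512 := Equiv.ofBijective (fun x => (⟨code x, hc.lt x⟩ : Fin 512)) (by
    constructor
    · intro a b h
      exact hc.inj (congrArg Fin.val h)
    · intro n
      obtain ⟨x, hx⟩ := hc.surj n.1 n.2
      exact ⟨x, Fin.ext hx⟩)
  rw [Nat.card_congr e]
  simp

theorem Coded.isP : IsPGroup 2 S := IsPGroup.of_card (n := 9) (by rw [hc.card]; norm_num)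

theorem Coded.central_of_centL {z : S} (h : code z ∈ centL) (y : S) : z * y = y * z := by
  have h1 := check_cent1
  rw [List.all_eq_true] at h1
  have h2 := h1 _ h
  rw [List.all_eq_true] at h2
  exact (hc.comm_iff z y).2 (h2 _ (mem_L.2 (hc.lt y)))

theorem Coded.centL_of_central {z : S} (h : ∀ y, z * y = y * z) : code z ∈ centL := by
  have h1 := check_cent2
  rw [List.all_eq_true] at h1
  have h2 := h1 _ (mem_L.2 (hc.lt z))
  rw [Bool.or_eq_true] at h2
  rcases h2 with h2 | h2
  · exfalso
    have h3 : L.all (cm (code z)) = true := by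
      rw [List.all_eq_true]
      intro n hn
      obtain ⟨y, rfl⟩ := hc.surj n (mem_L.1 hn)
      exact (hc.comm_iff z y).1 (h y)
    rw [h3] at h2
    simp at h2
  · exact List.contains_iff_mem.1 h2

/-- number of elements of a set of numbers bounds the order of a group mapping into it -/
theorem card_le_of_map {Y : Type*} (f : Y → S) (hf : Function.Injective f) (T : List ℕ)
    (hT : ∀ y, code (f y) ∈ T) : Nat.card Y ≤ T.length := by
  classical
  have := hc.finite
  have h1 : Nat.card Y ≤ Nat.card ↥T.toFinset :=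
    Nat.card_le_card_of_injective (fun y => (⟨code (f y), List.mem_toFinset.2 (hT y)⟩ : ↥T.toFinset)) (by
      intro a b h
      exact hf (hc.inj (congrArg Subtype.val h)))
  rw [Nat.card_eq_fintype_card (α := ↥T.toFinset), Fintype.card_coe] at h1
  exact h1.trans (List.toFinset_card_le T)

/-- the centre of a coatom has order at most 8 -/
theorem Coded.center_coatom (M : Subgroup S) (hM : IsCoatom M) : Nat.card ↥(Subgroup.center ↥M) ≤ 8 := by
  classical
  have := hc.finite
  by_cases hz : ∀ z : ↥(Subgroup.center ↥M), ∀ y : S, ((z : ↥M) : S) * y = y * (z : ↥M)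
  · have := card_le_of_map hc (fun z : ↥(Subgroup.center ↥M) => ((z : ↥M) : S))
      ((Subgroup.subtype_injective _).comp (Subgroup.subtype_injective _)) centL
      (fun z => hc.centL_of_central (hz z))
    exact this.trans (by decide)
  · rw [not_forall] at hz
    obtain ⟨z, hz⟩ := hz
    rw [not_forall] at hz
    obtain ⟨y0, hy0⟩ := hz
    -- `M` is the centraliser of `z`
    let C : Subgroup S := Subgroup.centralizer ({((z : ↥M) : S)} : Set S)
    have hMC : M ≤ C := by
      intro m hm
      have h1 := Subgroup.mem_center_iff.1 z.2 ⟨m, hm⟩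
      refine Subgroup.mem_centralizer_singleton_iff.2 ?_
      exact congrArg Subtype.val h1
    have hCne : C ≠ ⊤ := by
      intro h
      apply hy0
      have : y0 ∈ C := by rw [h]; exact Subgroup.mem_top y0
      exact (Subgroup.mem_centralizer_singleton_iff.1 this).symm
    have hMeq : M = C := by
      rcases hMC.lt_or_eq with h | h
      · exact absurd (hM.2 _ h) hCne
      · exact h
    -- the number of `z`
    have hidx := index_coatom hc.isP hM
    have hcard : Nat.card ↥M = 256 := by
      have h1 := Subgroup.card_mul_index M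
      rw [hidx, hc.card] at h1
      omega
    have hx : code ((z : ↥M) : S) ∈ lgL := by
      have h1 := check_small
      rw [List.all_eq_true] at h1
      have h2 := h1 _ (mem_L.2 (hc.lt ((z : ↥M) : S)))
      rw [Bool.or_eq_true, Bool.or_eq_true] at h2
      rcases h2 with (h2 | h2) | h2
      · exfalso
        exact hy0 (hc.central_of_centL (List.contains_iff_mem.1 h2) y0)
      · exact List.contains_iff_mem.1 h2
      · exfalso
        -- the centraliser has at least 256 elements
        have h3 : Nat.card ↥M ≤ (L.filter (cm (code ((z : ↥M) : S)))).length := by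
          apply card_le_of_map hc (fun m : ↥M => (m : S)) (Subgroup.subtype_injective _)
          intro m
          rw [List.mem_filter]
          refine ⟨mem_L.2 (hc.lt _), ?_⟩
          apply (hc.comm_iff _ _).1
          exact (Subgroup.mem_centralizer_singleton_iff.1 (hMC m.2)).symm
        rw [hcard] at h3
        have h4 := h2
        rw [Nat.blt_eq] at h4
        omega
    have hdbl := check_dbl
    rw [List.all_eq_true] at hdbl
    have h5 := Nat.le_of_ble_eq_true (hdbl _ hx)
    refine le_trans ?_ h5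
    apply card_le_of_map hc (fun z : ↥(Subgroup.center ↥M) => ((z : ↥M) : S))
      ((Subgroup.subtype_injective _).comp (Subgroup.subtype_injective _))
    intro z'
    rw [dblC, List.mem_filter]
    refine ⟨mem_L.2 (hc.lt _), ?_⟩
    rw [List.all_eq_true]
    intro n hn
    obtain ⟨y, rfl⟩ := hc.surj n (mem_L.1 hn)
    rw [Bool.or_eq_true]
    by_cases h6 : cm (code ((z : ↥M) : S)) (code y) = true
    · right
      have h7 : ((z : ↥M) : S) * y = y * (z : ↥M) := (hc.comm_iff _ _).2 h6
      have h8 : y ∈ M := by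
        rw [hMeq]
        exact Subgroup.mem_centralizer_singleton_iff.2 h7.symm
      apply (hc.comm_iff _ _).1
      have h9 := Subgroup.mem_center_iff.1 z'.2 ⟨y, h8⟩
      exact (congrArg Subtype.val h9).symm
    · left
      simp [h6]

end

theorem check_cancel : R8.all (fun r => R8.all (fun t => !(Nat.beq (mulD r t) r) || Nat.beq t 0)) = true := by
  decide +kernel

theorem check_rho_lt : L.all (fun x => Nat.blt (rho x) 8) = true := by decide +kernel

theorem rho_lt {x : ℕ} (hx : x < 512) : rho x < 8 := by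
  have h := check_rho_lt
  rw [List.all_eq_true] at h
  have h1 := h x (mem_L.2 hx)
  rw [Nat.blt_eq] at h1
  exact h1

theorem mem_R8 {r : ℕ} : r ∈ R8 ↔ r < 8 := List.mem_range

section
variable {S : Type*} [Group S] {code : S → ℕ} (hc : Coded code)
include hc

theorem Coded.rho_mul (x y : S) : rho (code (x * y)) = mulD (rho (code x)) (rho (code y)) := by
  have h := check_rho
  rw [List.all_eq_true] at h
  have h1 := h _ (mem_L.2 (hc.lt x))
  rw [List.all_eq_true] at h1
  rw [hc.mul]
  exact Nat.eq_of_beq_eq_true (h1 _ (mem_L.2 (hc.lt y)))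

theorem Coded.mem_NL_iff (x : S) : code x ∈ NL ↔ rho (code x) = 0 := by
  rw [NL, List.mem_filter]
  constructor
  · rintro ⟨-, h⟩
    exact Nat.eq_of_beq_eq_true h
  · intro h
    refine ⟨mem_L.2 (hc.lt x), ?_⟩
    rw [h]
    rfl

theorem Coded.sq_of_rho {x : S} (h : rho (code x) = 0) : x * x = 1 := by
  apply hc.inj
  have h1 := check_NL_sq
  rw [List.all_eq_true] at h1
  have h2 := h1 _ ((hc.mem_NL_iff x).2 h)
  rw [hc.mul, hc.one]
  exact Nat.eq_of_beq_eq_true h2

/-- the normal subgroup -/
def Coded.N : Subgroup S where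
  carrier := {x | rho (code x) = 0}
  mul_mem' := by
    intro a b ha hb
    have ha' : rho (code a) = 0 := ha
    have hb' : rho (code b) = 0 := hb
    change rho (code (a * b)) = 0
    rw [hc.rho_mul, ha', hb']
    rfl
  one_mem' := by
    change rho (code 1) = 0
    rw [hc.one]
    rfl
  inv_mem' := by
    intro a ha
    have ha' : rho (code a) = 0 := ha
    have : a⁻¹ = a := inv_eq_of_mul_eq_one_left (hc.sq_of_rho ha')
    rw [this]
    exact ha

theorem Coded.mem_N {x : S} : x ∈ hc.N ↔ rho (code x) = 0 := Iff.rfl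

theorem Coded.N_comm {x y : S} (hx : x ∈ hc.N) (hy : y ∈ hc.N) : x * y = y * x := by
  have h1 := check_NL_comm
  rw [List.all_eq_true] at h1
  have h2 := h1 _ ((hc.mem_NL_iff x).2 hx)
  rw [List.all_eq_true] at h2
  exact (hc.comm_iff x y).2 (h2 _ ((hc.mem_NL_iff y).2 hy))

theorem Coded.elem_N : IsElementaryAbelian 2 hc.N := by
  refine ⟨⟨⟨?_⟩⟩, ?_⟩
  · rintro ⟨x, hx⟩ ⟨y, hy⟩
    exact Subtype.ext (hc.N_comm hx hy)
  · intro a ha
    rw [pow_two]
    exact hc.sq_of_rho ha

theorem Coded.card_N : Nat.card ↥hc.N = 64 := by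
  classical
  have hnd : NL.Nodup := List.Nodup.filter _ List.nodup_range
  have e : ↥hc.N ≃ ↥NL.toFinset := Equiv.ofBijective
    (fun x => ⟨code x.1, List.mem_toFinset.2 ((hc.mem_NL_iff x.1).2 x.2)⟩) (by
      constructor
      · intro a b h
        exact Subtype.ext (hc.inj (congrArg Subtype.val h))
      · rintro ⟨n, hn⟩
        have hn' := List.mem_toFinset.1 hn
        have hlt : n < 512 := mem_L.1 (List.mem_filter.1 hn').1
        obtain ⟨x, rfl⟩ := hc.surj n hlt
        exact ⟨⟨x, (hc.mem_NL_iff x).1 hn'⟩, rfl⟩)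
  rw [Nat.card_congr e, Nat.card_eq_fintype_card, Fintype.card_coe, List.toFinset_card_of_nodup hnd, NL_length]

theorem Coded.card_finset_le (B : Finset S) (T : List ℕ) (h : ∀ x ∈ B, code x ∈ T) : B.card ≤ T.length := by
  classical
  have h1 : B.card ≤ T.toFinset.card :=
    Finset.card_le_card_of_injOn code (fun x hx => List.mem_toFinset.2 (h x hx)) (fun a _ b _ e => hc.inj e)
  exact h1.trans (List.toFinset_card_le T)

/-- the uniqueness of the abelian subgroup of order 64 -/
theorem Coded.unique_abelian (A : Subgroup S) (hAb : IsMulCommutative ↥A) (hcard : Nat.card ↥A = 64) : A = hc.N := by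
  classical
  have := hc.finite
  by_contra hne
  have hnle : ¬ A ≤ hc.N := by
    intro h
    exact hne (Subgroup.eq_of_le_of_card_ge h (by rw [hcard, hc.card_N]))
  obtain ⟨a, haA, haN⟩ := SetLike.not_le_iff_exists.1 hnle
  have hcomm : ∀ x ∈ A, ∀ y ∈ A, x * y = y * x := by
    intro x hx y hy
    have := hAb.is_comm.comm ⟨x, hx⟩ ⟨y, hy⟩
    exact congrArg Subtype.val this
  let : Fintype S := Fintype.ofFinite S
  let s : Finset S := Finset.univ.filter (· ∈ A)
  have hs : s.card = 64 := by
    rw [← hcard, Nat.card_eq_fintype_card (α := ↥A), Fintype.card_subtype]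
  let f : S → ℕ := fun x => rho (code x)
  let R : Finset ℕ := s.image f
  let B : Finset S := s.filter (· ∈ hc.N)
  have hmemS : ∀ {x}, x ∈ s ↔ x ∈ A := by
    intro x
    simp [s]
  have hmemB : ∀ {x}, x ∈ B ↔ x ∈ A ∧ x ∈ hc.N := by
    intro x
    simp [B, s]
  have hfib : ∀ r ∈ R, (s.filter fun x => f x = r).card ≤ B.card := by
    intro r hr
    obtain ⟨a0, ha0, rfl⟩ := Finset.mem_image.1 hr
    have ha0A := hmemS.1 ha0
    refine Finset.card_le_card_of_injOn (fun x => a0⁻¹ * x) ?_ ?_
    · intro x hx
      have hx' := (Finset.mem_filter.1 hx)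
      have hxA := hmemS.1 hx'.1
      refine hmemB.2 ⟨A.mul_mem (A.inv_mem ha0A) hxA, ?_⟩
      have h1 : f x = mulD (f a0) (f (a0⁻¹ * x)) := by
        have := hc.rho_mul a0 (a0⁻¹ * x)
        rwa [mul_inv_cancel_left] at this
      have h2 : f a0 = mulD (f a0) (f (a0⁻¹ * x)) := hx'.2.symm.trans h1
      have h3 := check_cancel
      rw [List.all_eq_true] at h3
      have h4 := h3 _ (mem_R8.2 (rho_lt (hc.lt a0)))
      rw [List.all_eq_true] at h4
      have h5 := h4 _ (mem_R8.2 (rho_lt (hc.lt (a0⁻¹ * x))))
      rw [Bool.or_eq_true] at h5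
      rcases h5 with h5 | h5
      · exfalso
        have : Nat.beq (mulD (f a0) (f (a0⁻¹ * x))) (f a0) = true := by
          rw [← h2]
          exact Nat.beq_refl _
        change (!(Nat.beq (mulD (f a0) (f (a0⁻¹ * x))) (f a0))) = true at h5
        rw [this] at h5
        simp at h5
      · exact Nat.eq_of_beq_eq_true h5
    · intro x _ y _ e
      exact mul_left_cancel e
  have hmain : s.card ≤ B.card * R.card := Finset.card_le_mul_card_image s B.card hfib
  rw [hs] at hmain
  have hRsub : R ⊆ Finset.range 8 := by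
    intro r hr
    obtain ⟨x, _, rfl⟩ := Finset.mem_image.1 hr
    exact Finset.mem_range.2 (rho_lt (hc.lt x))
  have hR8 : R.card ≤ 8 := by
    simpa using Finset.card_le_card hRsub
  have hB_comm : ∀ x ∈ B, ∀ y ∈ A, cm (code x) (rep (rho (code y))) = true := by
    intro x hx y hy
    have hx' := hmemB.1 hx
    have h1 := check_rep
    rw [List.all_eq_true] at h1
    have h2 := h1 _ ((hc.mem_NL_iff x).2 hx'.2)
    rw [List.all_eq_true] at h2
    have h3 := h2 _ (mem_L.2 (hc.lt y))
    have h4 : cm (code x) (code y) = true := (hc.comm_iff x y).1 (hcomm x hx'.1 y hy)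
    rw [h4] at h3
    exact (beq_iff_eq.1 h3).symm
  have hf_ne : f a ≠ 0 := haN
  -- first bound
  have hB16 : B.card ≤ 16 := by
    have h1 := check_CN1
    rw [List.all_eq_true] at h1
    have h2 := h1 _ (mem_R8.2 (rho_lt (hc.lt a)))
    rw [Bool.or_eq_true] at h2
    rcases h2 with h2 | h2
    · exact absurd (Nat.eq_of_beq_eq_true h2) hf_ne
    · refine le_trans (hc.card_finset_le B (CN (f a)) ?_) (Nat.le_of_ble_eq_true h2)
      intro x hx
      rw [CN, List.mem_filter]
      exact ⟨(hc.mem_NL_iff x).2 (hmemB.1 hx).2, hB_comm x hx a haA⟩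
  have hR4 : 4 ≤ R.card := by
    by_contra hlt
    have : R.card ≤ 3 := by omega
    have : B.card * R.card ≤ 16 * 3 := Nat.mul_le_mul hB16 this
    omega
  obtain ⟨r', hr'R, hr'⟩ : ∃ r' ∈ R, r' ∉ ({0, f a} : Finset ℕ) := by
    apply Finset.exists_mem_notMem_of_card_lt_card
    have : ({0, f a} : Finset ℕ).card ≤ 2 := Finset.card_le_two
    omega
  obtain ⟨b', hb's, rfl⟩ := Finset.mem_image.1 hr'R
  have hb'A := hmemS.1 hb's
  have hb'1 : f b' ≠ 0 := fun h => hr' (by simp [h])
  have hb'2 : f b' ≠ f a := fun h => hr' (by simp [h])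
  have hB8 : B.card ≤ 8 := by
    have h1 := check_CN2
    rw [List.all_eq_true] at h1
    have h2 := h1 _ (mem_R8.2 (rho_lt (hc.lt a)))
    rw [List.all_eq_true] at h2
    have h3 := h2 _ (mem_R8.2 (rho_lt (hc.lt b')))
    simp only [Bool.or_eq_true] at h3
    rcases h3 with (((h3 | h3) | h3) | h3) | h3
    · exact absurd (Nat.eq_of_beq_eq_true h3) hf_ne
    · exact absurd (Nat.eq_of_beq_eq_true h3) hb'1
    · exact absurd (Nat.eq_of_beq_eq_true h3).symm hb'2
    · exfalso
      have h4 : mulD (f a) (f b') = mulD (f b') (f a) := by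
        change mulD (rho (code a)) (rho (code b')) = mulD (rho (code b')) (rho (code a))
        rw [← hc.rho_mul, ← hc.rho_mul, hcomm a haA b' hb'A]
      have h5 : Nat.beq (mulD (f a) (f b')) (mulD (f b') (f a)) = true := by
        rw [h4]
        exact Nat.beq_refl _
      change (!(Nat.beq (mulD (f a) (f b')) (mulD (f b') (f a)))) = true at h3
      rw [h5] at h3
      simp at h3
    · refine le_trans (hc.card_finset_le B (CN2 (f a) (f b')) ?_) (Nat.le_of_ble_eq_true h3)
      intro x hx
      rw [CN2, List.mem_filter, CN, List.mem_filter]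
      exact ⟨⟨(hc.mem_NL_iff x).2 (hmemB.1 hx).2, hB_comm x hx a haA⟩, hB_comm x hx b' hb'A⟩
  have hR8' : 8 ≤ R.card := by
    by_contra hlt
    have : R.card ≤ 7 := by omega
    have : B.card * R.card ≤ 8 * 7 := Nat.mul_le_mul hB8 this
    omega
  have hReq : R = Finset.range 8 := Finset.eq_of_subset_of_card_le hRsub (by simpa using hR8')
  have h1 : (1 : ℕ) ∈ R := by rw [hReq]; simp
  have h4 : (4 : ℕ) ∈ R := by rw [hReq]; simp
  obtain ⟨x1, hx1, e1⟩ := Finset.mem_image.1 h1
  obtain ⟨x4, hx4, e4⟩ := Finset.mem_image.1 h4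
  apply check_D
  have h5 := hc.rho_mul x1 x4
  have h6 := hc.rho_mul x4 x1
  rw [hcomm x1 (hmemS.1 hx1) x4 (hmemS.1 hx4), h6] at h5
  have e1' : rho (code x1) = 1 := e1
  have e4' : rho (code x4) = 4 := e4
  rw [e1', e4'] at h5
  exact h5.symm

/-- the main theorem for a numbered group -/
theorem Coded.main :
    (∀ M : Subgroup S, IsCoatom M → Nat.card ↥(Subgroup.center ↥M) ≤ 8) ∧
      (∃ A : Subgroup S, IsElementaryAbelian 2 A ∧ Nat.card ↥A = 64) ∧
      ∀ A B : Subgroup S, IsMulCommutative ↥A → Nat.card ↥A = 64 → IsMulCommutative ↥B → Nat.card ↥B = 64 → A = B :=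
  ⟨hc.center_coatom, ⟨hc.N, hc.elem_N, hc.card_N⟩, fun A B hA hA' hB hB' =>
    (hc.unique_abelian A hA hA').trans (hc.unique_abelian B hB hB').symm⟩

end

end Cfsg.Agent.Lib.UT5Quot
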