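import Mathlib
import Cfsg.Agent.Lib.UT5QuotMain
import Cfsg.Agent.Lib.TvCent

set_option autoImplicit false
set_option linter.unusedVariables false
set_option linter.unusedSectionVars false

/-!
# A Sylow 2-subgroup of the centraliser of a transvection in `SL₅(2)`, and its quotient by its centre
-/

namespace Cfsg.Agent.Lib.TvCent
open Cfsg Matrix Cfsg.Agent.Lib.UT5Quot

/-- the unitriangular subgroup of `SL₃(2)` -/
def UT3 : Subgroup SL3' where
  carrier := {B | B.1 1 0 = 0 ∧ B.1 2 0 = 0 ∧ B.1 2 1 = 0}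
  mul_mem' := by
    have : ∀ a b : SL3', (a.1 1 0 = 0 ∧ a.1 2 0 = 0 ∧ a.1 2 1 = 0) → (b.1 1 0 = 0 ∧ b.1 2 0 = 0 ∧ b.1 2 1 = 0) →
        ((a * b).1 1 0 = 0 ∧ (a * b).1 2 0 = 0 ∧ (a * b).1 2 1 = 0) := by decide +kernel
    intro a b ha hb
    exact this a b ha hb
  one_mem' := by
    have : ((1 : SL3').1 1 0 = 0 ∧ (1 : SL3').1 2 0 = 0 ∧ (1 : SL3').1 2 1 = 0) := by decide +kernel
    exact this
  inv_mem' := by
    have : ∀ a : SL3', (a.1 1 0 = 0 ∧ a.1 2 0 = 0 ∧ a.1 2 1 = 0) →
        ((a⁻¹).1 1 0 = 0 ∧ (a⁻¹).1 2 0 = 0 ∧ (a⁻¹).1 2 1 = 0) := by decide +kernel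
    intro a ha
    exact this a ha

theorem card_UT3 : Nat.card ↥UT3 = 8 := by
  classical
  have h : Nat.card ↥UT3 = (Finset.univ.filter fun B : SL3' => B.1 1 0 = 0 ∧ B.1 2 0 = 0 ∧ B.1 2 1 = 0).card := by
    rw [← Fintype.card_subtype, ← Nat.card_eq_fintype_card]
    rfl
  rw [h]
  decide +kernel

theorem UT3_diag : ∀ a : SL3', (a.1 1 0 = 0 ∧ a.1 2 0 = 0 ∧ a.1 2 1 = 0) → a.1 0 0 = 1 ∧ a.1 1 1 = 1 ∧ a.1 2 2 = 1 := by
  decide +kernel

/-- the Sylow 2-subgroup -/
def U0 : Subgroup ↥C0 := UT3.comap beta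

theorem card_U0 : Nat.card ↥U0 = 1024 := by
  have h1 : U0.index = UT3.index := Subgroup.index_comap_of_surjective _ beta_surjective
  have h2 := Subgroup.card_mul_index UT3
  have h3 := Subgroup.card_mul_index U0
  rw [card_UT3, card_SL3] at h2
  rw [card_C0, h1] at h3
  have h4 : UT3.index = 21 := by omega
  rw [h4] at h3
  omega

theorem Q0_le_U0 : Q0 ≤ U0 := by
  intro m hm
  have : beta m = 1 := hm
  change beta m ∈ UT3
  rw [this]
  exact UT3.one_mem

/-- the elements of the unitriangular group, with the coordinates named after the ordering `0, 2, 3, 4, 1` of the basis -/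
def mkU (x12 x13 x14 x15 x23 x24 x25 x34 x35 x45 : ZMod 2) : M5 :=
  !![1, x15, x12, x13, x14;
     0, 1, 0, 0, 0;
     0, x25, 1, x23, x24;
     0, x35, 0, 1, x34;
     0, x45, 0, 0, 1]

theorem mkU_mul (x12 x13 x14 x15 x23 x24 x25 x34 x35 x45 y12 y13 y14 y15 y23 y24 y25 y34 y35 y45 : ZMod 2) :
    mkU x12 x13 x14 x15 x23 x24 x25 x34 x35 x45 * mkU y12 y13 y14 y15 y23 y24 y25 y34 y35 y45 =
      mkU (x12 + y12) (x13 + y13 + x12 * y23) (x14 + y14 + (x12 * y24 + x13 * y34))
        (x15 + y15 + (x12 * y25 + x13 * y35 + x14 * y45)) (x23 + y23) (x24 + y24 + x23 * y34)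
        (x25 + y25 + (x23 * y35 + x24 * y45)) (x34 + y34) (x35 + y35 + x34 * y45) (x45 + y45) := by
  ext i j
  fin_cases i <;> fin_cases j <;> simp [mkU, Matrix.mul_apply, Fin.sum_univ_five] <;> ring

theorem U0_form (m : ↥U0) : ((m : ↥C0) : SL5).1 =
    mkU (((m : ↥C0) : SL5).1 0 2) (((m : ↥C0) : SL5).1 0 3) (((m : ↥C0) : SL5).1 0 4) (((m : ↥C0) : SL5).1 0 1)
      (((m : ↥C0) : SL5).1 2 3) (((m : ↥C0) : SL5).1 2 4) (((m : ↥C0) : SL5).1 2 1)
      (((m : ↥C0) : SL5).1 3 4) (((m : ↥C0) : SL5).1 3 1) (((m : ↥C0) : SL5).1 4 1) := by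
  have hs := shape_C0 (m : ↥C0)
  obtain ⟨h00, h11⟩ := shape_one (m : ↥C0).2
  have hU : beta (m : ↥C0) ∈ UT3 := m.2
  obtain ⟨h1, h2, h3⟩ := hU
  obtain ⟨d1, d2, d3⟩ := UT3_diag (beta (m : ↥C0)) ⟨h1, h2, h3⟩
  simp only [beta_coe, blk] at h1 h2 h3 d1 d2 d3
  simp at h1 h2 h3 d1 d2 d3
  ext i j
  fin_cases i <;> fin_cases j <;>
    simp [mkU, h00, h11, hs.c10, hs.c20, hs.c30, hs.c40, hs.c12, hs.c13, hs.c14, h1, h2, h3, d1, d2, d3]

/-- the number of coordinates of the quotient -/
def packF (t : Fin 9 → ZMod 2) : ℕ :=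
  (t 0).val + 2 * (t 1).val + 4 * (t 2).val + 8 * (t 3).val + 16 * (t 4).val + 32 * (t 5).val + 64 * (t 6).val +
    128 * (t 7).val + 256 * (t 8).val

theorem packF_testBit : ∀ (t : Fin 9 → ZMod 2) (k : Fin 9), (packF t).testBit k = decide (t k = 1) := by
  decide +kernel

theorem packF_bit : ∀ (t : Fin 9 → ZMod 2) (k : Fin 9), b (packF t) k = (t k).val := by
  decide +kernel

theorem packF_lt : ∀ t : Fin 9 → ZMod 2, packF t < 512 := by decide +kernel

theorem packF_inj : ∀ t u : Fin 9 → ZMod 2, packF t = packF u → t = u := by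
  intro t u h
  funext k
  have h1 := packF_testBit t k
  have h2 := packF_testBit u k
  rw [h] at h1
  rw [h1] at h2
  have h3 : (t k = 1) ↔ (u k = 1) := decide_eq_decide.1 h2
  have key : ∀ a c : ZMod 2, (a = 1 ↔ c = 1) → a = c := by decide
  exact key _ _ h3

theorem packF_add (t u : Fin 9 → ZMod 2) : packF (t + u) = Nat.xor (packF t) (packF u) := by
  apply Nat.eq_of_testBit_eq
  intro k
  by_cases hk : k < 9
  · have h1 := packF_testBit (t + u) ⟨k, hk⟩
    have h2 := packF_testBit t ⟨k, hk⟩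
    have h3 := packF_testBit u ⟨k, hk⟩
    simp only at h1 h2 h3
    change (packF (t + u)).testBit k = ((packF t) ^^^ (packF u)).testBit k
    rw [Nat.testBit_xor, h1, h2, h3, Pi.add_apply]
    generalize t ⟨k, hk⟩ = a
    generalize u ⟨k, hk⟩ = c
    revert a c
    decide
  · have h9 : (2 : ℕ) ^ 9 ≤ 2 ^ k := Nat.pow_le_pow_right (by norm_num) (by omega)
    have hlt : ∀ t : Fin 9 → ZMod 2, (packF t).testBit k = false := fun t =>
      Nat.testBit_lt_two_pow (lt_of_lt_of_le (packF_lt t) h9)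
    change (packF (t + u)).testBit k = ((packF t) ^^^ (packF u)).testBit k
    rw [Nat.testBit_xor, hlt, hlt, hlt]
    rfl

/-- the correction term -/
def ccF (t u : Fin 9 → ZMod 2) : Fin 9 → ZMod 2 :=
  ![0, t 0 * u 3, t 0 * u 4 + t 1 * u 6, 0, t 3 * u 6, t 3 * u 7 + t 4 * u 8, 0, t 6 * u 8, 0]

theorem corr_aux : ∀ a0 a1 a3 a4 a6 c3 c4 c6 c7 c8 : ZMod 2,
    Nat.add (Nat.mul 2 (Nat.land a0.val c3.val))
    (Nat.add (Nat.mul 4 (Nat.xor (Nat.land a0.val c4.val) (Nat.land a1.val c6.val)))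
      (Nat.add (Nat.mul 16 (Nat.land a3.val c6.val))
        (Nat.add (Nat.mul 32 (Nat.xor (Nat.land a3.val c7.val) (Nat.land a4.val c8.val)))
          (Nat.mul 128 (Nat.land a6.val c8.val))))) =
    packF ![0, a0 * c3, a0 * c4 + a1 * c6, 0, a3 * c6, a3 * c7 + a4 * c8, 0, a6 * c8, 0] := by
  decide +kernel

theorem corr_packF (t u : Fin 9 → ZMod 2) : corr (packF t) (packF u) = packF (ccF t u) := by
  have h0 := packF_bit t 0
  have h1 := packF_bit t 1
  have h3 := packF_bit t 3
  have h4 := packF_bit t 4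
  have h6 := packF_bit t 6
  have k3 := packF_bit u 3
  have k4 := packF_bit u 4
  have k6 := packF_bit u 6
  have k7 := packF_bit u 7
  have k8 := packF_bit u 8
  unfold corr
  rw [show b (packF t) 0 = (t 0).val from h0, show b (packF t) 1 = (t 1).val from h1,
    show b (packF t) 3 = (t 3).val from h3, show b (packF t) 4 = (t 4).val from h4,
    show b (packF t) 6 = (t 6).val from h6, show b (packF u) 3 = (u 3).val from k3,
    show b (packF u) 4 = (u 4).val from k4, show b (packF u) 6 = (u 6).val from k6,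
    show b (packF u) 7 = (u 7).val from k7, show b (packF u) 8 = (u 8).val from k8]
  exact corr_aux _ _ _ _ _ _ _ _ _ _

theorem mulC_packF (t u : Fin 9 → ZMod 2) : mulC (packF t) (packF u) = packF (t + u + ccF t u) := by
  rw [packF_add, packF_add]
  unfold mulC
  rw [corr_packF]

/-- the coordinates of an element -/
def coords (m : ↥U0) : Fin 9 → ZMod 2 :=
  ![((m : ↥C0) : SL5).1 0 2, ((m : ↥C0) : SL5).1 0 3, ((m : ↥C0) : SL5).1 0 4, ((m : ↥C0) : SL5).1 2 3,
    ((m : ↥C0) : SL5).1 2 4, ((m : ↥C0) : SL5).1 2 1, ((m : ↥C0) : SL5).1 3 4, ((m : ↥C0) : SL5).1 3 1,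
    ((m : ↥C0) : SL5).1 4 1]

/-- the number of an element -/
def codeU (m : ↥U0) : ℕ := packF (coords m)

theorem coe_mul_U0 (a c : ↥U0) : ((a * c : ↥U0) : ↥C0).1.1 = (a : ↥C0).1.1 * (c : ↥C0).1.1 := rfl

theorem coords_mul (a c : ↥U0) : coords (a * c) = coords a + coords c + ccF (coords a) (coords c) := by
  have hm := coe_mul_U0 a c
  rw [U0_form a, U0_form c, mkU_mul] at hm
  unfold coords
  rw [hm]
  funext k
  fin_cases k <;> simp [mkU, ccF]

theorem codeU_mul (a c : ↥U0) : codeU (a * c) = mulC (codeU a) (codeU c) := by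
  unfold codeU
  rw [coords_mul, mulC_packF]

theorem codeU_lt (a : ↥U0) : codeU a < 512 := packF_lt _

theorem codeU_one : codeU 1 = 0 := by
  have : coords 1 = 0 := by
    funext k
    fin_cases k <;> simp [coords]
  unfold codeU
  rw [this]
  rfl

/-- the central element -/
def y0U : ↥U0 := ⟨(y0 : ↥C0), Q0_le_U0 y0.2⟩

theorem y0U_val : ((y0U : ↥U0) : ↥C0).1.1 = mkQ 1 0 0 0 0 0 0 := rfl

theorem mem_center_U0 {x : ↥U0} : x ∈ Subgroup.center ↥U0 ↔ x = 1 ∨ x = y0U := by
  constructor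
  · intro hx
    have h := cent_Q0 (x : ↥C0) (fun y => by
      have h1 := Subgroup.mem_center_iff.1 hx ⟨(y : ↥C0), Q0_le_U0 y.2⟩
      exact congrArg Subtype.val h1)
    rcases h with h | h
    · left
      exact Subtype.ext h
    · right
      exact Subtype.ext h
  · rintro (rfl | rfl)
    · exact Subgroup.one_mem _
    · rw [Subgroup.mem_center_iff]
      intro g
      apply Subtype.ext
      apply Subtype.ext
      have h1 := Subgroup.mem_centralizer_singleton_iff.1 (g : ↥C0).2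
      have h2 : ((y0 : ↥C0) : SL5) = s0 := by
        apply Subtype.ext
        exact tvM_eq.symm
      change ((g : ↥C0) : SL5) * ((y0 : ↥C0) : SL5) = ((y0 : ↥C0) : SL5) * ((g : ↥C0) : SL5)
      rw [h2]
      exact h1

theorem y0U_ne : y0U ≠ 1 := by
  intro h
  have h1 : (y0U : ↥C0) = 1 := congrArg (fun x : ↥U0 => (x : ↥C0)) h
  have h2 : y0 = 1 := Subtype.ext h1
  have := (mkY_inj (h2.trans mkY_one.symm)).1
  exact one_ne_zero this

theorem card_center_U0 : Nat.card ↥(Subgroup.center ↥U0) = 2 := by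
  classical
  have e : ↥(Subgroup.center ↥U0) ≃ ↥(({1, y0U} : Finset ↥U0)) := Equiv.subtypeEquivRight (by
    intro x
    rw [mem_center_U0]
    simp)
  rw [Nat.card_congr e, Nat.card_eq_fintype_card, Fintype.card_coe]
  exact Finset.card_pair y0U_ne.symm

theorem coords_y0U : coords y0U = 0 := by
  funext k
  fin_cases k <;> simp [coords, y0U_val, mkQ]

theorem codeU_eq_iff {a c : ↥U0} : codeU a = codeU c ↔ a⁻¹ * c ∈ Subgroup.center ↥U0 := by
  constructor
  · intro h
    have h1 : coords a = coords c := packF_inj _ _ h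
    have e : ∀ k, coords a k = coords c k := fun k => by rw [h1]
    have e0 := e 0
    have e1 := e 1
    have e2 := e 2
    have e3 := e 3
    have e4 := e 4
    have e5 := e 5
    have e6 := e 6
    have e7 := e 7
    have e8 := e 8
    simp [coords] at e0 e1 e2 e3 e4 e5 e6 e7 e8
    rw [mem_center_U0]
    have h2 : ∃ d : ZMod 2, ((c : ↥C0) : SL5).1 0 1 = ((a : ↥C0) : SL5).1 0 1 + d := ⟨_, (add_sub_cancel _ _).symm⟩
    obtain ⟨d, hd⟩ := h2
    have h3 : ((c : ↥C0) : SL5).1 = ((a : ↥C0) : SL5).1 * mkQ d 0 0 0 0 0 0 := by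
      have h4 : mkQ d 0 0 0 0 0 0 = mkU 0 0 0 d 0 0 0 0 0 0 := by
        ext i j
        fin_cases i <;> fin_cases j <;> simp [mkQ, mkU]
      rw [h4, U0_form a, mkU_mul, U0_form c, ← e0, ← e1, ← e2, ← e3, ← e4, ← e5, ← e6, ← e7, ← e8, hd]
      simp
    have key : ∀ x : ↥U0, ∀ y : ↥U0, ((y : ↥C0) : SL5).1 = ((x : ↥C0) : SL5).1 → y = x :=
      fun x y h => Subtype.ext (Subtype.ext (Subtype.ext h))
    rcases zmod2_cases d with rfl | rfl
    · left
      have h5 : c = a := key _ _ (by rw [h3, mkQ_zero, mul_one])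
      rw [h5, inv_mul_cancel]
    · right
      have h5 : c = a * y0U := key _ _ h3
      rw [h5, inv_mul_cancel_left]
  · intro h
    rw [mem_center_U0] at h
    rcases h with h | h
    · have : c = a := by
        have h2 := mul_eq_one_iff_eq_inv.1 h
        simpa using h2.symm
      rw [this]
    · have h2 : c = a * y0U := by
        rw [← h, mul_inv_cancel_left]
      rw [h2]
      have h3 : coords (a * y0U) = coords a := by
        rw [coords_mul, coords_y0U, add_zero]
        have : ccF (coords a) 0 = 0 := by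
          funext k
          fin_cases k <;> simp [ccF]
        rw [this, add_zero]
      unfold codeU
      rw [h3]

/-- the number of an element of the quotient -/
def codeQ : ↥U0 ⧸ Subgroup.center ↥U0 → ℕ :=
  Quotient.lift codeU (by
    intro a c h
    exact codeU_eq_iff.2 (QuotientGroup.leftRel_apply.1 h))

theorem codeQ_mk (a : ↥U0) : codeQ (a : ↥U0 ⧸ Subgroup.center ↥U0) = codeU a := rfl

theorem codeQ_inj : Function.Injective codeQ := by
  intro a c
  induction a using QuotientGroup.induction_on with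
  | H a =>
    induction c using QuotientGroup.induction_on with
    | H c =>
      intro h
      exact QuotientGroup.eq.2 (codeU_eq_iff.1 h)

theorem codeQ_lt (x : ↥U0 ⧸ Subgroup.center ↥U0) : codeQ x < 512 := by
  induction x using QuotientGroup.induction_on with
  | H a => exact codeU_lt a

theorem card_quot_U0 : Nat.card (↥U0 ⧸ Subgroup.center ↥U0) = 512 := by
  have h := Subgroup.card_eq_card_quotient_mul_card_subgroup (Subgroup.center ↥U0)
  rw [card_U0, card_center_U0] at h
  omega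

theorem codeQ_surj (n : ℕ) (hn : n < 512) : ∃ x, codeQ x = n := by
  have : Finite (↥U0 ⧸ Subgroup.center ↥U0) := Nat.finite_of_card_ne_zero (by rw [card_quot_U0]; norm_num)
  have hinj : Function.Injective (fun x => (⟨codeQ x, codeQ_lt x⟩ : Fin 512)) := by
    intro a c h
    exact codeQ_inj (congrArg Fin.val h)
  have hbij := Function.Injective.bijective_of_nat_card_le hinj (by rw [card_quot_U0]; simp)
  obtain ⟨x, hx⟩ := hbij.2 ⟨n, hn⟩
  exact ⟨x, congrArg Fin.val hx⟩

theorem coded_Q : Coded codeQ where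
  inj := codeQ_inj
  lt := codeQ_lt
  surj := codeQ_surj
  mul := by
    intro a c
    induction a using QuotientGroup.induction_on with
    | H a =>
      induction c using QuotientGroup.induction_on with
      | H c => exact codeU_mul a c
  one := codeU_one

end Cfsg.Agent.Lib.TvCent
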