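import Mathlib
import Cfsg.Agent.Lib.M24CentModel
import Cfsg.Agent.Lib.TvSylow

set_option autoImplicit false
set_option linter.unusedVariables false
set_option linter.unusedSectionVars false

/-!
# The Sylow 2-subgroups of `M24` and the unitriangular group
-/

namespace Cfsg.Agent.Lib.M24Cent
open Cfsg Cfsg.Agent.Lib.Golay Cfsg.Agent.Lib.TvCent Cfsg.Agent.Lib.UT5Quot

/-- the embedding of the unitriangular group in `M24` -/
noncomputable def j1 : ↥U0 →* ↥M24 := j0.comp U0.subtype

theorem j1_injective : Function.Injective j1 := j0_injective.comp (Subgroup.subtype_injective _)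

theorem card_M24_factorization : (Nat.card ↥M24).factorization 2 = 10 := by
  rw [card_M24, show 244823040 = 2 ^ 10 * 239085 by norm_num, Nat.factorization_mul (by norm_num) (by norm_num),
    Nat.Prime.factorization_pow Nat.prime_two]
  simp [Nat.factorization_eq_zero_of_not_dvd (show ¬ 2 ∣ 239085 by norm_num)]

theorem card_j1_range : Nat.card ↥j1.range = 1024 := by
  rw [← card_U0]
  exact Nat.card_congr (MonoidHom.ofInjective j1_injective).toEquiv.symm

/-- the Sylow 2-subgroup of `M24` coming from the unitriangular group -/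
noncomputable def VS : Sylow 2 ↥M24 :=
  Sylow.ofCard j1.range (by rw [card_j1_range, card_M24_factorization]; norm_num)

/-- every Sylow 2-subgroup of `M24` is isomorphic to the unitriangular group -/
noncomputable def sylowEquiv (P : Sylow 2 ↥M24) : ↥(P : Subgroup ↥M24) ≃* ↥U0 :=
  (Sylow.equiv P VS).trans (MonoidHom.ofInjective j1_injective).symm

theorem map_center_equiv {G H : Type*} [Group G] [Group H] (e : G ≃* H) :
    (Subgroup.center G).map e.toMonoidHom = Subgroup.center H := by
  ext x
  constructor
  · rintro ⟨y, hy, rfl⟩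
    rw [Subgroup.mem_center_iff]
    intro g
    obtain ⟨g, rfl⟩ := e.surjective g
    change e g * e y = e y * e g
    rw [← map_mul, ← map_mul, Subgroup.mem_center_iff.1 hy g]
  · intro hx
    refine ⟨e.symm x, Subgroup.mem_center_iff.2 ?_, by simp⟩
    intro g
    apply e.injective
    rw [map_mul, map_mul, MulEquiv.apply_symm_apply, Subgroup.mem_center_iff.1 hx (e g)]

/-- the quotient by the centre -/
noncomputable def quotEquiv (P : Sylow 2 ↥M24) :
    (↥(P : Subgroup ↥M24) ⧸ Subgroup.center ↥(P : Subgroup ↥M24)) ≃* (↥U0 ⧸ Subgroup.center ↥U0) :=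
  QuotientGroup.congr _ _ (sylowEquiv P) (map_center_equiv (sylowEquiv P))

theorem coded_P (P : Sylow 2 ↥M24) : Coded (fun x => codeQ (quotEquiv P x)) where
  inj := codeQ_inj.comp (quotEquiv P).injective
  lt := fun x => codeQ_lt _
  surj := by
    intro n hn
    obtain ⟨x, hx⟩ := codeQ_surj n hn
    exact ⟨(quotEquiv P).symm x, by simp [hx]⟩
  mul := by
    intro x y
    simp only [map_mul]
    exact coded_Q.mul _ _
  one := by
    simp only [map_one]
    exact coded_Q.one

end Cfsg.Agent.Lib.M24Cent
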