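import Mathlib
import Cfsg.Agent.Lib.M648Chars

/-!
# The lattice of generalized characters vanishing off the regular classes of `3³:S₄`
-/

set_option autoImplicit false
set_option maxRecDepth 100000

namespace Cfsg.Agent.Lib.M648Lat

open Cfsg Complex Cfsg.Agent.Lib.CharBasic Cfsg.Agent.Lib.CharInd Cfsg.Agent.Lib.GenChar
open Cfsg.Agent.Lib.M648Model Cfsg.Agent.Lib.M648Chars
open scoped ComplexConjugate

def latT : List (List ℤ) :=
  [[0, 0, 0, 0, 0, 1, -1, 0, 0, 0, 0, 0, 0],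
  [0, 0, 0, 0, 0, 0, 0, 0, 0, 1, -1, 0, 0],
  [0, 0, 0, 1, 1, -1, 0, 0, 0, 0, 0, 0, 0],
  [0, 0, 1, 0, 0, 1, 0, 0, 0, -1, 0, 0, 0],
  [1, 0, 1, 1, 0, 0, 0, -1, 0, 0, 0, 0, 0],
  [1, 0, 0, 0, 1, 0, 0, 0, 0, 1, 0, 0, -1],
  [0, 1, 1, 0, 1, 0, 0, 0, -1, 0, 0, 0, 0],
  [0, 1, 0, 1, 0, 0, 0, 0, 0, 1, 0, -1, 0]]

/-- Coefficients of `t₁, t₂, r₁, r₂, r₄, r₇, r₅, r₆` in terms of the characters. -/
def lat (α : Fin 8) (i : Fin 13) : ℤ := (latT.getD α.1 []).getD i.1 0

def Fre (α : Fin 8) (c : Fin 14) : ℤ := ∑ i, lat α i * Xre i c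
def Fim (α : Fin 8) (c : Fin 14) : ℤ := ∑ i, lat α i * Xim i c

/-- The class functions of the lattice. -/
noncomputable def F (α : Fin 8) (w : M648) : ℂ :=
  ((Fre α (cl w) : ℤ) : ℂ) + ((Fim α (cl w) : ℤ) : ℂ) * sq3

theorem F_eq (α : Fin 8) : F α = ∑ i, (lat α i) • X i := by
  funext w
  rw [Finset.sum_apply]
  simp only [Pi.smul_apply, zsmul_eq_mul, F, Fre, Fim, X]
  push_cast
  rw [Finset.sum_mul, ← Finset.sum_add_distrib]
  refine Finset.sum_congr rfl fun i _ => ?_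
  ring

theorem gen_F (α : Fin 8) : IsGeneralizedCharacter M648 (F α) := by
  rw [F_eq]
  exact isGen_sum _ _ fun i _ => isGen_zsmul (isGen_of_isChar (isChar_X i)) _

theorem F_class (α : Fin 8) (x h : M648) : F α (h * x * h⁻¹) = F α x := by
  simp only [F, cl_conj]

theorem F_van : ∀ (α : Fin 8) (c : Fin 14), c.1 < 5 → Fre α c = 0 ∧ Fim α c = 0 := by decide +kernel

theorem F_supp (α : Fin 8) (x : M648) (h : F α x ≠ 0) : 5 ≤ (cl x).1 := by
  by_contra hlt
  obtain ⟨h1, h2⟩ := F_van α (cl x) (by omega)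
  apply h
  simp [F, h1, h2]

/-- The orders of the classes. -/
def sz (c : Fin 14) : ℕ := [1, 27, 54, 54, 72, 6, 54, 54, 54, 108, 72, 72, 12, 8].getD c.1 0

theorem card_cl : ∀ c, (Finset.univ.filter (fun w : M648 => cl w = c)).card = sz c := by
  decide +kernel

theorem sum_cl (f : Fin 14 → ℂ) : ∑ w : M648, f (cl w) = ∑ c, (sz c : ℂ) * f c := by
  rw [← Finset.sum_fiberwise Finset.univ cl]
  refine Finset.sum_congr rfl fun c _ => ?_
  rw [Finset.sum_congr rfl (g := fun _ => f c)]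
  · rw [Finset.sum_const, card_cl, nsmul_eq_mul]
  · intro w hw
    rw [(Finset.mem_filter.1 hw).2]

/-- The Gram matrix. -/
def gram (α β : Fin 8) : ℤ := ∑ i, lat α i * lat β i

theorem gramRe : ∀ α β : Fin 8, ∑ c, (sz c : ℤ) * (Fre α c * Fre β c + 3 * (Fim α c * Fim β c)) =
    648 * gram α β := by decide +kernel

theorem gramIm : ∀ α β : Fin 8, ∑ c, (sz c : ℤ) * (Fre α c * Fim β c + Fim α c * Fre β c) = 0 := by
  decide +kernel

theorem conj_F (α : Fin 8) (w : M648) : conj (F α w) = F α w := by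
  simp [F, conj_sq3]

theorem sum_FF (α β : Fin 8) : ∑ w, F α w * conj (F β w) = 648 * (gram α β : ℂ) := by
  obtain ⟨f, hf⟩ : ∃ f : Fin 14 → ℂ, f = fun c => (((Fre α c * Fre β c + 3 * (Fim α c * Fim β c) : ℤ) : ℂ)) +
        ((Fre α c * Fim β c + Fim α c * Fre β c : ℤ) : ℂ) * sq3 := ⟨_, rfl⟩
  have h1 : ∀ w, F α w * conj (F β w) = f (cl w) := by
    intro w
    rw [conj_F, hf]
    simp only [F]
    push_cast
    linear_combination ((Fim α (cl w) : ℂ) * (Fim β (cl w) : ℂ)) * sq3_sq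
  simp only [h1]
  rw [sum_cl, hf]
  have h2 : ∀ c, (sz c : ℂ) * (((Fre α c * Fre β c + 3 * (Fim α c * Fim β c) : ℤ) : ℂ) +
        ((Fre α c * Fim β c + Fim α c * Fre β c : ℤ) : ℂ) * sq3) =
      (((sz c : ℤ) * (Fre α c * Fre β c + 3 * (Fim α c * Fim β c)) : ℤ) : ℂ) +
        (((sz c : ℤ) * (Fre α c * Fim β c + Fim α c * Fre β c) : ℤ) : ℂ) * sq3 := by
    intro c
    push_cast
    ring
  simp only [h2]
  rw [Finset.sum_add_distrib, ← Finset.sum_mul, ← Int.cast_sum, ← Int.cast_sum, gramRe, gramIm]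
  simp

theorem sumRe : ∀ α : Fin 8, ∑ c, (sz c : ℤ) * Fre α c = 648 * lat α 0 := by decide +kernel
theorem sumIm : ∀ α : Fin 8, ∑ c, (sz c : ℤ) * Fim α c = 0 := by decide +kernel

theorem sum_F (α : Fin 8) : ∑ w, F α w = 648 * (lat α 0 : ℂ) := by
  obtain ⟨f, hf⟩ : ∃ f : Fin 14 → ℂ, f = fun c => ((Fre α c : ℤ) : ℂ) + ((Fim α c : ℤ) : ℂ) * sq3 :=
    ⟨_, rfl⟩
  have h1 : ∀ w, F α w = f (cl w) := by
    intro w
    rw [hf]
    rfl
  simp only [h1]
  rw [sum_cl, hf]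
  have h2 : ∀ c, (sz c : ℂ) * (((Fre α c : ℤ) : ℂ) + ((Fim α c : ℤ) : ℂ) * sq3) =
      (((sz c : ℤ) * Fre α c : ℤ) : ℂ) + (((sz c : ℤ) * Fim α c : ℤ) : ℂ) * sq3 := by
    intro c
    push_cast
    ring
  simp only [h2]
  rw [Finset.sum_add_distrib, ← Finset.sum_mul, ← Int.cast_sum, ← Int.cast_sum, sumRe, sumIm]
  simp

/-! ### Class sums in the model -/

/-- The pairs of representatives. -/
def pa : Fin 3 → M648 := ![t0, t0, u0]
def pb : Fin 3 → Fin 14 := ![1, 2, 2]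

/-- The values of the class sums. -/
def msT (α : Fin 8) (k : Fin 3) : ℤ :=
  (([[0, 0, 36], [72, 0, 0], [72, 72, 72], [36, 36, 54]] : List (List ℤ)).getD (α.1 - 2) []).getD k.1 0

theorem msRe : ∀ (α : Fin 8) (k : Fin 3), 2 ≤ α.1 → α.1 ≤ 5 →
    (∑ w : M648, if cl w = pb k then Fre α (cl (pa k * w)) else 0) = msT α k := by decide +kernel
theorem msIm : ∀ (α : Fin 8) (k : Fin 3), 2 ≤ α.1 → α.1 ≤ 5 →
    (∑ w : M648, if cl w = pb k then Fim α (cl (pa k * w)) else 0) = 0 := by decide +kernel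

theorem ms_val (α : Fin 8) (k : Fin 3) (h1 : 2 ≤ α.1) (h2 : α.1 ≤ 5) :
    (∑ w : M648, if cl w = pb k then F α (pa k * w) else 0) = (msT α k : ℂ) := by
  have e : ∀ w : M648, (if cl w = pb k then F α (pa k * w) else 0) =
      (((if cl w = pb k then Fre α (cl (pa k * w)) else 0 : ℤ)) : ℂ) +
        (((if cl w = pb k then Fim α (cl (pa k * w)) else 0 : ℤ)) : ℂ) * sq3 := by
    intro w
    split_ifs
    · rfl
    · simp
  simp only [e]
  rw [Finset.sum_add_distrib, ← Finset.sum_mul, ← Int.cast_sum, ← Int.cast_sum, msRe α k h1 h2,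
    msIm α k h1 h2]
  simp

/-- The double sum in the model reduces to a single sum. -/
theorem dsum_M {Φ : M648 → ℂ} (hΦ : ∀ x h : M648, Φ (h * x * h⁻¹) = Φ x) (a : M648) (cb : Fin 14) :
    (∑ w : M648, ∑ w' : M648, if cl w = cl a ∧ cl w' = cb then Φ (w * w') else 0) =
      (sz (cl a) : ℂ) * ∑ w' : M648, if cl w' = cb then Φ (a * w') else 0 := by
  have key : ∀ w : M648, (∑ w' : M648, if cl w = cl a ∧ cl w' = cb then Φ (w * w') else 0) =
      if cl w = cl a then (∑ w' : M648, if cl w' = cb then Φ (a * w') else 0) else 0 := by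
    intro w
    split_ifs with hw
    · obtain ⟨g, hg⟩ := conj_of_cl hw.symm
      refine Fintype.sum_equiv (MulAut.conj g⁻¹).toEquiv _ _ fun w' => ?_
      have e1 : ((MulAut.conj g⁻¹).toEquiv w') = g⁻¹ * w' * g := by
        simp [MulAut.conj_apply]
      rw [e1]
      have e2 : cl (g⁻¹ * w' * g) = cl w' := by
        have := cl_conj g⁻¹ w'
        simpa using this
      rw [e2]
      simp only [hw, true_and]
      split_ifs
      · rw [← hg]
        have e3 : g * a * g⁻¹ * w' = g * (a * (g⁻¹ * w' * g)) * g⁻¹ := by group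
        rw [e3, hΦ]
      · rfl
    · refine Finset.sum_eq_zero fun w' _ => ?_
      rw [if_neg (fun h => hw h.1)]
  simp only [key]
  rw [Finset.sum_ite, Finset.sum_const_zero, add_zero, Finset.sum_const, card_cl, nsmul_eq_mul]

/-! ### The normal subgroup as a combination of characters -/

theorem theta_re : ∀ c : Fin 14, Xre 0 c + Xre 1 c + 2 * Xre 2 c + 3 * Xre 3 c + 3 * Xre 4 c =
    if c = 0 ∨ c = 5 ∨ c = 12 ∨ c = 13 then 24 else 0 := by decide +kernel
theorem theta_im : ∀ (i : Fin 13), i.1 ≤ 4 → ∀ c : Fin 14, Xim i c = 0 := by decide +kernel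

theorem theta (w : M648) : X 0 w + X 1 w + 2 * X 2 w + 3 * X 3 w + 3 * X 4 w =
    if w.2 = 0 then 24 else 0 := by
  have h : (((Xre 0 (cl w) + Xre 1 (cl w) + 2 * Xre 2 (cl w) + 3 * Xre 3 (cl w) + 3 * Xre 4 (cl w) : ℤ)) : ℂ) =
      if w.2 = 0 then 24 else 0 := by
    rw [theta_re]
    by_cases hw : w.2 = 0
    · rw [if_pos hw, if_pos ((J_cl w).1 hw)]
      simp
    · rw [if_neg hw, if_neg (fun h => hw ((J_cl w).2 h))]
      simp
  rw [← h]
  simp only [X]
  rw [theta_im 0 (by decide), theta_im 1 (by decide), theta_im 2 (by decide), theta_im 3 (by decide),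
    theta_im 4 (by decide)]
  push_cast
  ring

/-- `r₁` in terms of characters. -/
theorem F2_re : ∀ c, Fre 2 c = Xre 3 c + Xre 4 c - Xre 5 c := by decide +kernel
theorem F2_im : ∀ c, Fim 2 c = Xim 3 c + Xim 4 c - Xim 5 c := by decide +kernel

theorem F2_eq (w : M648) : F 2 w = X 3 w + X 4 w - X 5 w := by
  simp only [F, X, F2_re, F2_im]
  push_cast
  ring

theorem F1_val : F 1 (rep 10) = 3 := by
  have h1 : Fre 1 (cl (rep 10)) = 3 := by decide +kernel
  have h2 : Fim 1 (cl (rep 10)) = 0 := by decide +kernel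
  simp [F, h1, h2]

/-- The values of the characters of degree three. -/
theorem X34_re : ∀ (i : Fin 13), (i = 3 ∨ i = 4) → ∀ c : Fin 14,
    Xre i c = 3 ↔ (c = 0 ∨ c = 5 ∨ c = 12 ∨ c = 13) := by decide +kernel

theorem X34_val (i : Fin 13) (hi : i = 3 ∨ i = 4) (w : M648) : X i w = ((Xre i (cl w) : ℤ) : ℂ) := by
  have h : Xim i (cl w) = 0 := theta_im i (by rcases hi with rfl | rfl <;> decide) _
  simp [X, h]

/-- A value of a character of degree three equal to the degree only on `J`. -/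
theorem X34_eq (i : Fin 13) (hi : i = 3 ∨ i = 4) (w : M648) : X i w = 3 ↔ w.2 = 0 := by
  rw [X34_val i hi, J_cl, ← X34_re i hi]
  norm_cast

/-- Norm one of `X 3` and `X 4`. -/
theorem X_norm_aux : ∀ i : Fin 13, i = 3 ∨ i = 4 →
    ∑ c, (sz c : ℤ) * (Xre i c * Xre i c) = 648 := by decide +kernel

theorem X_irr (i : Fin 13) (hi : i = 3 ∨ i = 4) : IsIrrCharacter M648 (X i) := by
  apply isIrrCharacter_of_norm_one (isChar_X i)
  unfold classInner
  have h1 : ∀ w, X i w * conj (X i w) = ((fun c => (((Xre i c * Xre i c : ℤ)) : ℂ)) (cl w)) := by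
    intro w
    rw [X34_val i hi]
    simp
  simp only [h1]
  rw [sum_cl (fun c => (((Xre i c * Xre i c : ℤ)) : ℂ))]
  have h2 : ∀ c, (sz c : ℂ) * (((Xre i c * Xre i c : ℤ)) : ℂ) = (((sz c : ℤ) * (Xre i c * Xre i c) : ℤ) : ℂ) := by
    intro c
    push_cast
    ring
  simp only [h2]
  rw [← Int.cast_sum, X_norm_aux i hi, Nat.card_eq_fintype_card, card_M]
  norm_num

end Cfsg.Agent.Lib.M648Lat
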