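import Mathlib
import Cfsg.Agent.Lib.TiTau

/-!
# Induction of class functions supported on a set with the trivial intersection property

A model group `M`, an isomorphism `φ : M ≃* N` onto a subgroup of `G`, and a set `A` of elements of
`M` such that a conjugate of `ph φ w`, `w ∈ A`, lies in `N` only if the conjugating element lies in
`N`. Class functions on `M` supported on `A` induce isometrically to `G`.
-/

set_option autoImplicit false

namespace Cfsg.Agent.Lib.TiSet

open Cfsg Cfsg.Agent.Lib.CharBasic Cfsg.Agent.Lib.CharInd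
open Cfsg.Agent.Lib.GenChar Cfsg.Agent.Lib.TiTau
open scoped ComplexConjugate

variable {G : Type*} [Group G] {M : Type*} [Group M] {N : Subgroup G} {φ : M ≃* N} {A : M → Prop}

/-- The set `A` is TI. -/
def TI (φ : M ≃* N) (A : M → Prop) : Prop :=
  ∀ w, A w → ∀ z : G, z * ph φ w * z⁻¹ ∈ N → z ∈ N

/-- Admissible functions: class functions supported on `A`. -/
def AdmS (A : M → Prop) (F : M → ℂ) : Prop :=
  (∀ x h : M, F (h * x * h⁻¹) = F x) ∧ ∀ x : M, F x ≠ 0 → A x

/-- The function on `N` attached to a function on the model. -/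
noncomputable def fC (φ : M ≃* N) (F : M → ℂ) : N → ℂ := fun x => F (φ.symm x)

theorem ext_ph' (F : M → ℂ) (w : M) : extendByZero N (fC φ F) (ph φ w) = F w := by
  have := extendByZero_coe N (fC φ F) (φ w)
  simpa [fC] using this

theorem exists_of_ext_ne' {F : M → ℂ} (hF : AdmS A F) {g : G}
    (h : extendByZero N (fC φ F) g ≠ 0) : ∃ w, ph φ w = g ∧ A w := by
  by_cases hg : g ∈ N
  · obtain ⟨w, rfl⟩ := exists_ph (φ := φ) hg
    refine ⟨w, rfl, hF.2 w ?_⟩
    rwa [ext_ph'] at h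
  · exact absurd (extendByZero_of_not_mem N _ hg) h

/-- Two involutions whose product is in the support of an admissible function lie in `N`. -/
theorem mem_of_ext_ne' (c : TI φ A) {F : M → ℂ} (hF : AdmS A F) {u v : G} (hu : u * u = 1)
    (hv : v * v = 1) (h : extendByZero N (fC φ F) (u * v) ≠ 0) : u ∈ N ∧ v ∈ N := by
  obtain ⟨w, hw, hA⟩ := exists_of_ext_ne' (φ := φ) hF h
  have huinv : u⁻¹ = u := inv_eq_of_mul_eq_one_left hu
  have hvinv : v⁻¹ = v := inv_eq_of_mul_eq_one_left hv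
  have hinv : (ph φ w)⁻¹ ∈ N := N.inv_mem (ph_mem w)
  have huv : (u * v)⁻¹ = v * u := by rw [mul_inv_rev, huinv, hvinv]
  have e1 : u * (ph φ w) * u⁻¹ = (ph φ w)⁻¹ := by
    rw [hw, huv, huinv]
    calc u * (u * v) * u = (u * u) * v * u := by group
      _ = v * u := by rw [hu]; group
  have e2 : v * (ph φ w) * v⁻¹ = (ph φ w)⁻¹ := by
    rw [hw, huv, hvinv]
    calc v * (u * v) * v = v * u * (v * v) := by group
      _ = v * u := by rw [hv]; group
  exact ⟨c w hA u (e1 ▸ hinv), c w hA v (e2 ▸ hinv)⟩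

section Tau

variable [Fintype G]

/-- Induction to `G`. -/
noncomputable def tauC (φ : M ≃* N) (F : M → ℂ) : G → ℂ := indFun N (fC φ F)

theorem tauC_ph (c : TI φ A) {F : M → ℂ} (hF : AdmS A F) (w : M) :
    tauC φ F (ph φ w) = F w := by
  classical
  unfold tauC
  rw [indFun_apply]
  have key : ∀ x : G, extendByZero N (fC φ F) (x⁻¹ * ph φ w * x) =
      if x ∈ N then F w else 0 := by
    intro x
    split_ifs with hx
    · obtain ⟨v, rfl⟩ := exists_ph (φ := φ) hx
      have h1 : (ph φ v)⁻¹ * ph φ w * ph φ v = ph φ (v⁻¹ * w * v⁻¹⁻¹) := by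
        rw [ph_conj, ph_inv]
        simp
      rw [h1, ext_ph', hF.1 w v⁻¹]
    · by_contra hne
      obtain ⟨v, hv, hA⟩ := exists_of_ext_ne' (φ := φ) hF hne
      have h2 : x * ph φ v * x⁻¹ = ph φ w := by
        rw [hv]
        group
      exact hx (c v hA x (h2 ▸ ph_mem w))
  simp only [key]
  rw [Finset.sum_ite, Finset.sum_const_zero, add_zero, Finset.sum_const, nsmul_eq_mul]
  have h7 : ((Finset.univ.filter (fun x : G => x ∈ N)).card : ℂ) = (Nat.card N : ℂ) := by
    rw [Nat.card_eq_fintype_card, Fintype.card_subtype]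
  rw [h7]
  have h8 : (Nat.card N : ℂ) ≠ 0 := natCard_subgroup_ne_zero N
  field_simp

theorem tauC_class (φ : M ≃* N) (F : M → ℂ) : IsClassFunction G (tauC φ F) :=
  indFun_isClassFunction N _

theorem tauC_inner [Fintype M] (φ : M ≃* N) (F : M → ℂ) {ψ : G → ℂ} (hψ : IsClassFunction G ψ) :
    classInner (tauC φ F) ψ =
      (Fintype.card M : ℂ)⁻¹ * ∑ w : M, F w * conj (ψ (ph φ w)) := by
  classical
  let _ : Fintype N := Fintype.ofFinite _
  unfold tauC
  rw [frobenius N _ hψ]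
  unfold classInner
  have hc : Nat.card N = Fintype.card M := by
    rw [← Nat.card_congr φ.toEquiv, Nat.card_eq_fintype_card]
  rw [hc]
  congr 1
  refine (Fintype.sum_equiv φ.toEquiv _ _ fun w => ?_).symm
  simp [fC, ph]

theorem tauC_tau [Fintype M] (c : TI φ A) (F : M → ℂ) {F' : M → ℂ} (hF' : AdmS A F') :
    classInner (tauC φ F) (tauC φ F') =
      (Fintype.card M : ℂ)⁻¹ * ∑ w : M, F w * conj (F' w) := by
  rw [tauC_inner φ F (tauC_class φ F')]
  congr 1
  refine Finset.sum_congr rfl fun w _ => ?_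
  rw [tauC_ph c hF']

theorem tauC_gen (φ : M ≃* N) {F : M → ℂ} (hgen : IsGeneralizedCharacter M F) :
    IsGeneralizedCharacter G (tauC φ F) := by
  obtain ⟨χ, ψ, hχ, hψ, h⟩ := hgen
  have h1 : fC φ F = (χ ∘ φ.symm.toMonoidHom) - (ψ ∘ φ.symm.toMonoidHom) := by
    funext x
    have := congrFun h (φ.symm x)
    simpa [fC] using this
  refine ⟨_, _, indFun_isCharacter N (isCharacter_comp φ.symm.toMonoidHom hχ),
    indFun_isCharacter N (isCharacter_comp φ.symm.toMonoidHom hψ), ?_⟩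
  unfold tauC
  rw [h1, indFun_sub]

/-- The double sum over conjugates of `a` and `b`. -/
noncomputable def Dsum2 (a b : G) (θ : G → ℂ) : ℂ :=
  ∑ x : G, ∑ y : G, θ (x * a * x⁻¹ * (y * b * y⁻¹))

theorem Dsum2_add (a b : G) (θ₁ θ₂ : G → ℂ) : Dsum2 a b (θ₁ + θ₂) = Dsum2 a b θ₁ + Dsum2 a b θ₂ := by
  simp only [Dsum2, Pi.add_apply, Finset.sum_add_distrib]

theorem Dsum2_sub (a b : G) (θ₁ θ₂ : G → ℂ) : Dsum2 a b (θ₁ - θ₂) = Dsum2 a b θ₁ - Dsum2 a b θ₂ := by
  simp only [Dsum2, Pi.sub_apply, Finset.sum_sub_distrib]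

theorem Dsum2_smul (a b : G) (c : ℂ) (θ : G → ℂ) : Dsum2 a b (c • θ) = c * Dsum2 a b θ := by
  simp only [Dsum2, Pi.smul_apply, smul_eq_mul, Finset.mul_sum]

theorem Dsum2_irr {χ : G → ℂ} (hχ : IsIrrCharacter G χ) (a b : G) :
    χ 1 * Dsum2 a b χ = (Nat.card G : ℂ) ^ 2 * (χ a * χ b) := by
  unfold Dsum2
  rw [Finset.mul_sum]
  have h1 : ∀ x : G, χ 1 * ∑ y : G, χ (x * a * x⁻¹ * (y * b * y⁻¹)) =
      (Nat.card G : ℂ) * (χ a * χ b) := by
    intro x
    rw [Cfsg.Agent.Lib.CharAvg.irr_avg hχ]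
    rw [isClassFunction_of_isCharacter (IsIrrCharacter.isCharacter hχ) a x]
    ring
  simp only [h1, Finset.sum_const, Finset.card_univ, nsmul_eq_mul]
  rw [← Nat.card_eq_fintype_card]
  ring

theorem Dsum2_tau_aux (φ : M ≃* N) (F : M → ℂ) (a b : G) :
    Dsum2 a b (tauC φ F) = (Nat.card N : ℂ)⁻¹ * ((Nat.card G : ℂ) *
      Dsum2 a b (extendByZero N (fC φ F))) := by
  classical
  have key : ∀ z : G, ∑ x : G, ∑ y : G, extendByZero N (fC φ F)
      (z⁻¹ * (x * a * x⁻¹ * (y * b * y⁻¹)) * z) =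
      Dsum2 a b (extendByZero N (fC φ F)) := by
    intro z
    unfold Dsum2
    refine Fintype.sum_equiv (Equiv.mulLeft z⁻¹) _ _ fun x => ?_
    refine Fintype.sum_equiv (Equiv.mulLeft z⁻¹) _ _ fun y => ?_
    congr 1
    simp only [Equiv.coe_mulLeft]
    group
  have h2 : ∑ x : G, ∑ y : G, ∑ z : G, extendByZero N (fC φ F)
      (z⁻¹ * (x * a * x⁻¹ * (y * b * y⁻¹)) * z) =
      ∑ z : G, ∑ x : G, ∑ y : G, extendByZero N (fC φ F)
      (z⁻¹ * (x * a * x⁻¹ * (y * b * y⁻¹)) * z) := by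
    calc _ = ∑ x : G, ∑ z : G, ∑ y : G, extendByZero N (fC φ F)
            (z⁻¹ * (x * a * x⁻¹ * (y * b * y⁻¹)) * z) :=
          Finset.sum_congr rfl fun x _ => Finset.sum_comm
      _ = _ := Finset.sum_comm
  have h3 : Dsum2 a b (tauC φ F) = (Nat.card N : ℂ)⁻¹ * ∑ x : G, ∑ y : G, ∑ z : G,
      extendByZero N (fC φ F) (z⁻¹ * (x * a * x⁻¹ * (y * b * y⁻¹)) * z) := by
    unfold Dsum2 tauC
    simp only [indFun_apply, Finset.mul_sum]
  rw [h3, h2]
  simp only [key, Finset.sum_const, Finset.card_univ, nsmul_eq_mul]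
  rw [← Nat.card_eq_fintype_card]

theorem Dsum2_ext [Fintype M] (c : TI φ A) {F : M → ℂ} (hF : AdmS A F) {a b : G} (ha : a * a = 1)
    (hb : b * b = 1) [DecidablePred (fun u : G => IsConj a u)]
    [DecidablePred (fun u : G => IsConj b u)] :
    Dsum2 a b (extendByZero N (fC φ F)) = (cc a : ℂ) * (cc b : ℂ) *
      ∑ w : M, ∑ w' : M, if IsConj a (ph φ w) ∧ IsConj b (ph φ w') then F (w * w') else 0 := by
  classical
  have hinv : ∀ {a u : G}, a * a = 1 → IsConj a u → u * u = 1 := by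
    intro a u ha hu
    obtain ⟨g, rfl⟩ := isConj_iff.mp hu
    calc g * a * g⁻¹ * (g * a * g⁻¹) = g * (a * a) * g⁻¹ := by group
      _ = 1 := by rw [ha]; group
  unfold Dsum2
  have h1 : ∀ x : G, ∑ y : G, extendByZero N (fC φ F) (x * a * x⁻¹ * (y * b * y⁻¹)) =
      (cc b : ℂ) * ∑ v : G, if IsConj b v then extendByZero N (fC φ F) (x * a * x⁻¹ * v) else 0 :=
    fun x => sum_conj_fiber b (fun v => extendByZero N (fC φ F) (x * a * x⁻¹ * v))
  simp only [h1]
  rw [← Finset.mul_sum]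
  rw [sum_conj_fiber a (fun u => ∑ v : G, if IsConj b v then
    extendByZero N (fC φ F) (u * v) else 0)]
  rw [← mul_assoc, mul_comm (cc b : ℂ)]
  congr 1
  -- restrict to `N`
  have h2 : ∀ u : G, (if IsConj a u then ∑ v : G, if IsConj b v then
      extendByZero N (fC φ F) (u * v) else 0 else 0) =
      ∑ v : G, if IsConj a u ∧ IsConj b v then extendByZero N (fC φ F) (u * v) else 0 := by
    intro u
    by_cases hu : IsConj a u
    · rw [if_pos hu]
      refine Finset.sum_congr rfl fun v _ => ?_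
      simp only [hu, true_and]
    · rw [if_neg hu]
      symm
      refine Finset.sum_eq_zero fun v _ => ?_
      rw [if_neg (fun h => hu h.1)]
  simp only [h2]
  rw [sum_G_eq_sum_M (φ := φ)]
  · refine Finset.sum_congr rfl fun w _ => ?_
    rw [sum_G_eq_sum_M (φ := φ)]
    · refine Finset.sum_congr rfl fun w' _ => ?_
      rw [← ph_mul, ext_ph']
    · intro v hv
      split_ifs with h3
      · by_contra h4
        exact hv (mem_of_ext_ne' c hF (hinv ha h3.1) (hinv hb h3.2) h4).2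
      · rfl
  · intro u hu
    refine Finset.sum_eq_zero fun v _ => ?_
    split_ifs with h3
    · by_contra h4
      exact hu (mem_of_ext_ne' c hF (hinv ha h3.1) (hinv hb h3.2) h4).1
    · rfl

/-- The basic class-sum formula for induced functions. -/
theorem Dsum2_tau [Fintype M] (c : TI φ A) {F : M → ℂ} (hF : AdmS A F) {a b : G} (ha : a * a = 1)
    (hb : b * b = 1) [DecidablePred (fun u : G => IsConj a u)]
    [DecidablePred (fun u : G => IsConj b u)] :
    Dsum2 a b (tauC φ F) = (Fintype.card M : ℂ)⁻¹ * ((Nat.card G : ℂ) * ((cc a : ℂ) * (cc b : ℂ) *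
      ∑ w : M, ∑ w' : M, if IsConj a (ph φ w) ∧ IsConj b (ph φ w') then F (w * w') else 0)) := by
  have hc : Nat.card N = Fintype.card M := by
    rw [← Nat.card_congr φ.toEquiv, Nat.card_eq_fintype_card]
  rw [Dsum2_tau_aux, hc, Dsum2_ext c hF ha hb]

end Tau

end Cfsg.Agent.Lib.TiSet
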