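import Mathlib
import Cfsg.Agent.Lib.M648Lat
import Cfsg.Agent.Lib.TiSet
import Cfsg.Agent.Lib.Coh648
import Cfsg.Agent.Lib.Alg648
import Cfsg.Agent.Lib.H108Chars

/-!
# A character of degree three for a group containing `3³:S₄` with the TI property on regular elements
-/

set_option autoImplicit false

namespace Cfsg.Agent.Lib.M648Deg

open Cfsg Matrix Complex
open Cfsg.Agent.Lib.CharBasic Cfsg.Agent.Lib.GenChar Cfsg.Agent.Lib.TiTau Cfsg.Agent.Lib.TiSet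
open Cfsg.Agent.Lib.M648Model Cfsg.Agent.Lib.M648Chars Cfsg.Agent.Lib.M648Lat
open Cfsg.Agent.Lib.CycArray Cfsg.Agent.Lib.H108Chars Cfsg.Agent.Lib.Coh648
open Cfsg.Agent.Lib.CharLattice (exists_degree_pos)
open scoped ComplexConjugate

section Units

variable {G : Type*} [Group G] [Fintype G]

/-- The vector of degrees. -/
noncomputable def dv (χ : IrrCharacter G) : ℤ := ((exists_degree_pos χ.2).choose : ℤ)

theorem dv_spec (χ : IrrCharacter G) : (χ : G → ℂ) 1 = (dv χ : ℂ) := by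
  have := (exists_degree_pos χ.2).choose_spec.2
  simpa [dv] using this

theorem ev_one (u : IrrCharacter G → ℤ) : ev u 1 = ((u ⬝ᵥ dv : ℤ) : ℂ) := by
  unfold ev
  rw [Finset.sum_apply]
  simp only [Pi.smul_apply, smul_eq_mul, dv_spec, dotProduct]
  push_cast
  rfl

theorem dv_unit (u : IrrCharacter G → ℤ) (hu : IsU u) : u ⬝ᵥ dv ≠ 0 := by
  intro h
  apply ev_unit_one_ne hu
  rw [ev_one, h]
  simp

theorem ev_unit_Dsum2 {u : IrrCharacter G → ℤ} (hu : IsU u) (a b : G) :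
    ev u 1 * Dsum2 a b (ev u) = (Nat.card G : ℂ) ^ 2 * (ev u a * ev u b) := by
  obtain ⟨χ, s, hs, h⟩ := unit_struct hu
  rw [h, Dsum2_smul]
  simp only [Pi.smul_apply, smul_eq_mul]
  have h1 := Dsum2_irr χ.2 a b
  have hs' : (s : ℂ) ^ 2 = 1 := by exact_mod_cast hs
  linear_combination (s : ℂ) ^ 2 * h1 + ((Nat.card G : ℂ) ^ 2 * (χ.1 a * χ.1 b)) * ((s : ℂ) ^ 2 - 1) * 0

/-- The normalized value of a unit at an element. -/
noncomputable def Xv (a : G) (ca : ℂ) (U : IrrCharacter G → ℤ) : ℂ := (ev U 1 - ev U a) / ca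

theorem Xv_e0 (a : G) (ca : ℂ) : Xv a ca (e0 : IrrCharacter G → ℤ) = 0 := by
  simp [Xv, ev_e0]

theorem unit_form {U : IrrCharacter G → ℤ} (hU : IsU U) (a b : G) {ca cb : ℂ} (hca : ca ≠ 0)
    (hcb : cb ≠ 0) :
    Dsum2 a b (ev U) = (Nat.card G : ℂ) ^ 2 * (ev U 1 - ca * Xv a ca U - cb * Xv b cb U +
      ca * cb * (Xv a ca U * Xv b cb U / ev U 1)) := by
  have hd := ev_unit_one_ne hU
  have h := ev_unit_Dsum2 hU a b
  apply mul_left_cancel₀ hd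
  rw [h]
  unfold Xv
  field_simp
  ring

theorem key3 {A B C : IrrCharacter G → ℤ} (hA : IsU A) (hB : IsU B) (hC : IsU C) {θ : G → ℂ}
    (hθ : θ = ev A + ev B - ev C) {a b : G} {ca cb κ T : ℂ} (hca : ca ≠ 0) (hcb : cb ≠ 0)
    (h1 : θ 1 = 0) (ha : θ a = 0) (hb : θ b = 0)
    (hD : Dsum2 a b θ = (Nat.card G : ℂ) ^ 2 * (κ * (ca * cb * T))) :
    Xv a ca A * Xv b cb A / ev A 1 + Xv a ca B * Xv b cb B / ev B 1 -
      Xv a ca C * Xv b cb C / ev C 1 = κ * T := by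
  have hK : (Nat.card G : ℂ) ^ 2 ≠ 0 := pow_ne_zero 2 (by exact_mod_cast Nat.card_pos.ne')
  subst hθ
  simp only [Pi.sub_apply, Pi.add_apply] at h1 ha hb
  rw [Dsum2_sub, Dsum2_add, unit_form hA a b hca hcb, unit_form hB a b hca hcb,
    unit_form hC a b hca hcb] at hD
  have hxa : Xv a ca A + Xv a ca B - Xv a ca C = 0 := by
    unfold Xv
    field_simp
    linear_combination h1 - ha
  have hxb : Xv b cb A + Xv b cb B - Xv b cb C = 0 := by
    unfold Xv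
    field_simp
    linear_combination h1 - hb
  apply mul_left_cancel₀ (mul_ne_zero hK (mul_ne_zero hca hcb))
  linear_combination hD - (Nat.card G : ℂ) ^ 2 * h1 + (Nat.card G : ℂ) ^ 2 * ca * hxa +
    (Nat.card G : ℂ) ^ 2 * cb * hxb

theorem key4E {B C Dd : IrrCharacter G → ℤ} (hB : IsU B) (hC : IsU C) (hDd : IsU Dd) {θ : G → ℂ}
    (hθ : θ = ev e0 + ev B + ev C - ev Dd) {a b : G} {ca cb κ T : ℂ} (hca : ca ≠ 0) (hcb : cb ≠ 0)
    (h1 : θ 1 = 0) (ha : θ a = 0) (hb : θ b = 0)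
    (hD : Dsum2 a b θ = (Nat.card G : ℂ) ^ 2 * (κ * (ca * cb * T))) :
    Xv a ca B * Xv b cb B / ev B 1 + Xv a ca C * Xv b cb C / ev C 1 -
      Xv a ca Dd * Xv b cb Dd / ev Dd 1 = κ * T := by
  have hK : (Nat.card G : ℂ) ^ 2 ≠ 0 := pow_ne_zero 2 (by exact_mod_cast Nat.card_pos.ne')
  have he1 : Dsum2 a b (ev (e0 : IrrCharacter G → ℤ)) = (Nat.card G : ℂ) ^ 2 := by
    have := Dsum2_irr (isIrrCharacter_one (G := G)) a b
    rw [ev_e0]
    simpa using this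
  subst hθ
  simp only [Pi.sub_apply, Pi.add_apply, ev_e0] at h1 ha hb
  rw [Dsum2_sub, Dsum2_add, Dsum2_add, he1, unit_form hB a b hca hcb, unit_form hC a b hca hcb,
    unit_form hDd a b hca hcb] at hD
  have hxa : Xv a ca B + Xv a ca C - Xv a ca Dd = 0 := by
    unfold Xv
    field_simp
    linear_combination h1 - ha
  have hxb : Xv b cb B + Xv b cb C - Xv b cb Dd = 0 := by
    unfold Xv
    field_simp
    linear_combination h1 - hb
  apply mul_left_cancel₀ (mul_ne_zero hK (mul_ne_zero hca hcb))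
  linear_combination hD - (Nat.card G : ℂ) ^ 2 * h1 + (Nat.card G : ℂ) ^ 2 * ca * hxa +
    (Nat.card G : ℂ) ^ 2 * cb * hxb

/-- A unit of degree `-1` has values of norm at most one. -/
theorem norm_le_of_neg {U : IrrCharacter G → ℤ} (hU : IsU U) (h : ev U 1 = -1) (x : G) :
    ‖ev U x‖ ≤ 1 := by
  obtain ⟨χ, s, hs, he⟩ := unit_struct hU
  obtain ⟨d, hd, hd'⟩ := exists_degree_pos χ.2
  rw [he] at h ⊢
  simp only [Pi.smul_apply, smul_eq_mul, hd'] at h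
  have h2 : s * (d : ℤ) = -1 := by exact_mod_cast h
  have hss : s = 1 ∨ s = -1 := by
    have : (s - 1) * (s + 1) = 0 := by ring_nf; omega
    rcases mul_eq_zero.1 this with h4 | h4
    · left; omega
    · right; omega
  have hd1 : d = 1 := by
    rcases hss with rfl | rfl <;> omega
  have hs1 : s = -1 := by
    rcases hss with rfl | rfl
    · subst hd1
      norm_num at h2
    · rfl
  subst hs1
  have h3 := char_norm_le (IsIrrCharacter.isCharacter χ.2) x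
  rw [hd', hd1] at h3
  simpa using h3

end Units

section Main

variable {G : Type*} [Group G] [Fintype G] {N : Subgroup G} {φ : M648 ≃* N}

/-- The regular elements. -/
abbrev Reg (w : M648) : Prop := 5 ≤ (cl w).1

theorem adm_F (α : Fin 8) : AdmS Reg (F α) := ⟨F_class α, F_supp α⟩

theorem F_nonreg (α : Fin 8) {x : M648} (h : (cl x).1 < 5) : F α x = 0 := by
  obtain ⟨h1, h2⟩ := F_van α (cl x) h
  simp [F, h1, h2]

theorem tau_val (c : TI φ Reg) (α : Fin 8) (w : M648) : tauC φ (F α) (ph φ w) = F α w :=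
  tauC_ph c (adm_F α) w

/-- The class sums for the lattice elements. -/
theorem Dsum_F (c : TI φ Reg) (hconj : ∀ a : M648, a = t0 ∨ a = u0 → ∀ w,
      IsConj (ph φ a) (ph φ w) ↔ cl w = cl a)
    (α : Fin 8) (h2 : 2 ≤ α.1) (h5 : α.1 ≤ 5) (k : Fin 3) (b : M648) (hb : b = t0 ∨ b = u0)
    (hbk : cl b = pb k) (hak : pa k = t0 ∨ pa k = u0) :
    Dsum2 (ph φ (pa k)) (ph φ b) (tauC φ (F α)) =
      (648 : ℂ)⁻¹ * ((Nat.card G : ℂ) * ((cc (ph φ (pa k)) : ℂ) * (cc (ph φ b) : ℂ) *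
        ((sz (cl (pa k)) : ℂ) * (msT α k : ℂ)))) := by
  classical
  have hinv : ∀ a : M648, a = t0 ∨ a = u0 → ph φ a * ph φ a = 1 := by
    rintro a (rfl | rfl)
    · rw [← ph_mul, t0_sq, ph_one]
    · rw [← ph_mul, u0_sq, ph_one]
  rw [Dsum2_tau c (adm_F α) (hinv _ hak) (hinv _ hb), card_M]
  have h1 : (∑ w : M648, ∑ w' : M648, if IsConj (ph φ (pa k)) (ph φ w) ∧ IsConj (ph φ b) (ph φ w') then
      F α (w * w') else 0) = (sz (cl (pa k)) : ℂ) * (msT α k : ℂ) := by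
    rw [← ms_val α k h2 h5, ← dsum_M (F_class α) (pa k) (pb k)]
    refine Finset.sum_congr rfl fun w _ => Finset.sum_congr rfl fun w' _ => ?_
    simp only [hconj _ hak, hconj _ hb, hbk]
  rw [h1]
  norm_num

theorem natCard_ne : (Nat.card G : ℂ) ≠ 0 := by exact_mod_cast Nat.card_pos.ne'

/-- The class sum at `t₀, t₀`. -/
theorem Dsum0 (c : TI φ Reg) (hconj : ∀ a : M648, a = t0 ∨ a = u0 → ∀ w,
      IsConj (ph φ a) (ph φ w) ↔ cl w = cl a)
    (α : Fin 8) (h2 : 2 ≤ α.1) (h5 : α.1 ≤ 5) {Tv : ℂ} (hT : (msT α 0 : ℂ) = 27 * Tv) :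
    Dsum2 (ph φ t0) (ph φ t0) (tauC φ (F α)) = (Nat.card G : ℂ) ^ 2 * (648 / (Nat.card G : ℂ) *
      ((cc (ph φ t0) : ℂ) / 24 * ((cc (ph φ t0) : ℂ) / 24) * Tv)) := by
  have h := Dsum_F c hconj α h2 h5 0 t0 (Or.inl rfl) cl_t0 (Or.inl rfl)
  have e1 : pa 0 = t0 := rfl
  have e2 : sz (cl t0) = 27 := by decide +kernel
  rw [e1, e2, hT] at h
  rw [h]
  have hK := natCard_ne (G := G)
  field_simp
  ring

/-- The class sum at `t₀, u₀`. -/
theorem Dsum1 (c : TI φ Reg) (hconj : ∀ a : M648, a = t0 ∨ a = u0 → ∀ w,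
      IsConj (ph φ a) (ph φ w) ↔ cl w = cl a)
    (α : Fin 8) (h2 : 2 ≤ α.1) (h5 : α.1 ≤ 5) {Tv : ℂ} (hT : (msT α 1 : ℂ) = 54 * Tv) :
    Dsum2 (ph φ t0) (ph φ u0) (tauC φ (F α)) = (Nat.card G : ℂ) ^ 2 * (648 / (Nat.card G : ℂ) *
      ((cc (ph φ t0) : ℂ) / 24 * ((cc (ph φ u0) : ℂ) / 12) * Tv)) := by
  have h := Dsum_F c hconj α h2 h5 1 u0 (Or.inr rfl) cl_u0 (Or.inl rfl)
  have e1 : pa 1 = t0 := rfl
  have e2 : sz (cl t0) = 27 := by decide +kernel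
  rw [e1, e2, hT] at h
  rw [h]
  have hK := natCard_ne (G := G)
  field_simp
  ring

/-- The class sum at `u₀, u₀`. -/
theorem Dsum2' (c : TI φ Reg) (hconj : ∀ a : M648, a = t0 ∨ a = u0 → ∀ w,
      IsConj (ph φ a) (ph φ w) ↔ cl w = cl a)
    (α : Fin 8) (h2 : 2 ≤ α.1) (h5 : α.1 ≤ 5) {Tv : ℂ} (hT : (msT α 2 : ℂ) = 54 * Tv) :
    Dsum2 (ph φ u0) (ph φ u0) (tauC φ (F α)) = (Nat.card G : ℂ) ^ 2 * (648 / (Nat.card G : ℂ) *
      ((cc (ph φ u0) : ℂ) / 12 * ((cc (ph φ u0) : ℂ) / 12) * Tv)) := by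
  have h := Dsum_F c hconj α h2 h5 2 u0 (Or.inr rfl) cl_u0 (Or.inr rfl)
  have e1 : pa 2 = u0 := rfl
  have e2 : sz (cl u0) = 54 := by decide +kernel
  rw [e1, e2, hT] at h
  rw [h]
  have hK := natCard_ne (G := G)
  field_simp
  ring

theorem Xv_add3 {A B C : IrrCharacter G → ℤ} {θ : G → ℂ} (hθ : θ = ev A + ev B - ev C) {a : G}
    (ca : ℂ) (h1 : θ 1 = 0) (ha : θ a = 0) : Xv a ca C = Xv a ca A + Xv a ca B := by
  subst hθ
  simp only [Pi.sub_apply, Pi.add_apply] at h1 ha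
  unfold Xv
  have e1 : ev C 1 = ev A 1 + ev B 1 := by linear_combination -h1
  have e2 : ev C a = ev A a + ev B a := by linear_combination -ha
  rw [e1, e2]
  ring

theorem Xv_add4E {B C Dd : IrrCharacter G → ℤ} {θ : G → ℂ} (hθ : θ = ev e0 + ev B + ev C - ev Dd)
    {a : G} (ca : ℂ) (h1 : θ 1 = 0) (ha : θ a = 0) : Xv a ca Dd = Xv a ca B + Xv a ca C := by
  subst hθ
  simp only [Pi.sub_apply, Pi.add_apply, ev_e0] at h1 ha
  unfold Xv
  have e1 : ev Dd 1 = 1 + ev B 1 + ev C 1 := by linear_combination -h1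
  have e2 : ev Dd a = 1 + ev B a + ev C a := by linear_combination -ha
  rw [e1, e2]
  ring

theorem ev_unit_irr {U : IrrCharacter G → ℤ} (hU : IsU U) {n : ℕ} (hn : 0 < n)
    (h : ev U 1 = n) : IsIrrCharacter G (ev U) := by
  obtain ⟨χ, s, hs, he⟩ := unit_struct hU
  obtain ⟨d, hd, hd'⟩ := exists_degree_pos χ.2
  rw [he] at h ⊢
  simp only [Pi.smul_apply, smul_eq_mul, hd'] at h
  have h2 : s * (d : ℤ) = n := by exact_mod_cast h
  have hss : s = 1 ∨ s = -1 := by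
    have : (s - 1) * (s + 1) = 0 := by ring_nf; omega
    rcases mul_eq_zero.1 this with h4 | h4
    · left; omega
    · right; omega
  rcases hss with rfl | rfl
  · simpa using χ.2
  · omega

/-- The main statement on degrees. -/
theorem exists_three (c : TI φ Reg) (hconj : ∀ a : M648, a = t0 ∨ a = u0 → ∀ w,
      IsConj (ph φ a) (ph φ w) ↔ cl w = cl a) :
    ∃ ψ : G → ℂ, IsIrrCharacter G ψ ∧ ψ 1 = 3 ∧ classInner (tauC φ (F 2)) ψ = 1 := by
  classical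
  have hdec := fun α => Cfsg.Agent.Lib.CharLattice.exists_int_decomp (tauC_gen φ (gen_F α))
  choose v hv using hdec
  have hv' : ∀ α, tauC φ (F α) = ev (v α) := hv
  have hgram : ∀ α β, v α ⬝ᵥ v β = gram α β := by
    intro α β
    have h1 := tauC_tau c (F α) (adm_F β)
    rw [hv', hv', inner_ev, card_M, sum_FF] at h1
    have h2 : ((v α ⬝ᵥ v β : ℤ) : ℂ) = (gram α β : ℂ) := by
      rw [h1]
      push_cast
      field_simp
    exact_mod_cast h2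
  have he : ∀ α, v α ⬝ᵥ e0 = lat α 0 := by
    intro α
    have h1 := tauC_inner φ (F α) (isClassFunction_of_isCharacter (isCharacter_one (G := G)))
    rw [hv', ← ev_e0, inner_ev, card_M] at h1
    simp only [ev_e0, map_one, mul_one] at h1
    rw [sum_F] at h1
    have h2 : ((v α ⬝ᵥ e0 : ℤ) : ℂ) = (lat α 0 : ℂ) := by
      rw [h1]
      push_cast
      field_simp
    exact_mod_cast h2
  have hone : ∀ α, ev (v α) 1 = 0 := by
    intro α
    have h1 := tau_val c α 1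
    rw [ph_one, hv', F_nonreg α (by rw [(one_cl 1).2 rfl]; decide)] at h1
    exact h1
  have hdz : ∀ α, v α ⬝ᵥ dv = 0 := by
    intro α
    have h1 := hone α
    rw [ev_one] at h1
    exact_mod_cast h1
  have hT0 : ∀ α, ev (v α) (ph φ t0) = 0 := by
    intro α
    have h1 := tau_val c α t0
    rw [hv', F_nonreg α (by rw [cl_t0]; decide)] at h1
    exact h1
  have hU0 : ∀ α, ev (v α) (ph φ u0) = 0 := by
    intro α
    have h1 := tau_val c α u0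
    rw [hv', F_nonreg α (by rw [cl_u0]; decide)] at h1
    exact h1
  have hF : Fits [e0] [v 0, v 1, v 2, v 3, v 4, v 5, v 6, v 7] rows648 := by
    simp only [Fits, rows648, List.map_cons, List.map_nil, List.cons_append, List.nil_append, hgram, he]
    decide +kernel
  have hed : (e0 : IrrCharacter G → ℤ) ⬝ᵥ dv = 1 := by
    have h1 : ev (e0 : IrrCharacter G → ℤ) 1 = 1 := by rw [ev_e0]
    rw [ev_one] at h1
    exact_mod_cast h1
  obtain ⟨U2, U3, U4, U6, U6', U8, U8', Ff, Ff', hON, ht1, ht2, hR1, hR2, hR4, hR7⟩ :=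
    coh648 (dv := dv) (fun u hu => dv_unit u hu) e0_self hed (by simp [hdz]) hF
  simp only [ON] at hON
  obtain ⟨-, -, hU2, -, hU3, h3l, hU4, -, hU6, -, hU6', -, hU8, -, hU8', -, hFf, -, hFf', -⟩ := hON
  have hevR1 : ev (v 2) = ev U3 + ev U4 - ev U6 := by rw [hR1, ev_sub, ev_add]
  have hevR2 : ev (v 3) = ev U2 + ev U6 - ev U8 := by rw [hR2, ev_sub, ev_add]
  have hevR4 : ev (v 4) = ev e0 + ev U2 + ev U3 - ev Ff := by rw [hR4, ev_sub, ev_add, ev_add]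
  have hevR7 : ev (v 5) = ev e0 + ev U4 + ev U8 - ev Ff' := by rw [hR7, ev_sub, ev_add, ev_add]
  have hevT2 : ev (v 1) = ev U8 - ev U8' := by rw [ht2, ev_sub]
  -- the constants
  obtain ⟨K, hKdef⟩ : ∃ K : ℂ, K = (Nat.card G : ℂ) := ⟨_, rfl⟩
  have hK : K ≠ 0 := by rw [hKdef]; exact natCard_ne
  obtain ⟨κ, hκdef⟩ : ∃ κ : ℂ, κ = 648 / K := ⟨_, rfl⟩
  have hκ : κ ≠ 0 := by
    rw [hκdef]
    exact div_ne_zero (by norm_num) hK
  obtain ⟨T, hTdef⟩ : ∃ T : G, T = ph φ t0 := ⟨_, rfl⟩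
  obtain ⟨Uu, hUdef⟩ : ∃ Uu : G, Uu = ph φ u0 := ⟨_, rfl⟩
  obtain ⟨ct, hct⟩ : ∃ ct : ℂ, ct = (cc T : ℂ) / 24 := ⟨_, rfl⟩
  obtain ⟨cu, hcu⟩ : ∃ cu : ℂ, cu = (cc Uu : ℂ) / 12 := ⟨_, rfl⟩
  have hct0 : ct ≠ 0 := by
    rw [hct]
    exact div_ne_zero (by exact_mod_cast (cc_pos T).ne') (by norm_num)
  have hcu0 : cu ≠ 0 := by
    rw [hcu]
    exact div_ne_zero (by exact_mod_cast (cc_pos Uu).ne') (by norm_num)
  have hconj' : ∀ a : M648, a = t0 ∨ a = u0 → ∀ w,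
      IsConj (ph φ a) (ph φ w) ↔ cl w = cl a := hconj
  have D0 : ∀ (α : Fin 8), 2 ≤ α.1 → α.1 ≤ 5 → ∀ {Tv : ℂ}, (msT α 0 : ℂ) = 27 * Tv →
      Dsum2 T T (ev (v α)) = (Nat.card G : ℂ) ^ 2 * (κ * (ct * ct * Tv)) := by
    intro α h2 h5 Tv hT
    have := Dsum0 c hconj' α h2 h5 hT
    rw [hv', ← hTdef, ← hct, ← hKdef, ← hκdef] at this
    rw [← hKdef]
    exact this
  have D1 : ∀ (α : Fin 8), 2 ≤ α.1 → α.1 ≤ 5 → ∀ {Tv : ℂ}, (msT α 1 : ℂ) = 54 * Tv →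
      Dsum2 T Uu (ev (v α)) = (Nat.card G : ℂ) ^ 2 * (κ * (ct * cu * Tv)) := by
    intro α h2 h5 Tv hT
    have := Dsum1 c hconj' α h2 h5 hT
    rw [hv', ← hTdef, ← hUdef, ← hct, ← hcu, ← hKdef, ← hκdef] at this
    rw [← hKdef]
    exact this
  have D2 : ∀ (α : Fin 8), 2 ≤ α.1 → α.1 ≤ 5 → ∀ {Tv : ℂ}, (msT α 2 : ℂ) = 54 * Tv →
      Dsum2 Uu Uu (ev (v α)) = (Nat.card G : ℂ) ^ 2 * (κ * (cu * cu * Tv)) := by
    intro α h2 h5 Tv hT
    have := Dsum2' c hconj' α h2 h5 hT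
    rw [hv', ← hUdef, ← hcu, ← hKdef, ← hκdef] at this
    rw [← hKdef]
    exact this
  rw [← hTdef] at hT0
  rw [← hUdef] at hU0
  -- the relations
  have z1 : ∀ α, ev (v α) 1 = 0 := hone
  obtain ⟨b, hb⟩ : ∃ b : ℤ, b = U2 ⬝ᵥ dv := ⟨_, rfl⟩
  obtain ⟨c', hc'⟩ : ∃ c' : ℤ, c' = U3 ⬝ᵥ dv := ⟨_, rfl⟩
  obtain ⟨e, he'⟩ : ∃ e : ℤ, e = U4 ⬝ᵥ dv := ⟨_, rfl⟩
  have hd2 : ev U2 1 = (b : ℂ) := by rw [ev_one, hb]
  have hd3 : ev U3 1 = (c' : ℂ) := by rw [ev_one, hc']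
  have hd4 : ev U4 1 = (e : ℂ) := by rw [ev_one, he']
  have hd6 : ev U6 1 = (c' : ℂ) + e := by
    have := z1 2
    rw [hevR1] at this
    simp only [Pi.sub_apply, Pi.add_apply, hd3, hd4] at this
    linear_combination -this
  have hd8 : ev U8 1 = (b : ℂ) + c' + e := by
    have := z1 3
    rw [hevR2] at this
    simp only [Pi.sub_apply, Pi.add_apply, hd2, hd6] at this
    linear_combination -this
  have hdF : ev Ff 1 = 1 + (b : ℂ) + c' := by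
    have := z1 4
    rw [hevR4] at this
    simp only [Pi.sub_apply, Pi.add_apply, hd2, hd3, ev_e0] at this
    linear_combination -this
  have hdF' : ev Ff' 1 = 1 + (e : ℂ) + ((b : ℂ) + c' + e) := by
    have := z1 5
    rw [hevR7] at this
    simp only [Pi.sub_apply, Pi.add_apply, hd4, hd8, ev_e0] at this
    linear_combination -this
  have hx6 := Xv_add3 hevR1 ct (z1 2) (hT0 2)
  have hy6 := Xv_add3 hevR1 cu (z1 2) (hU0 2)
  have hx8 := Xv_add3 hevR2 ct (z1 3) (hT0 3)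
  have hy8 := Xv_add3 hevR2 cu (z1 3) (hU0 3)
  have hxF := Xv_add4E hevR4 ct (z1 4) (hT0 4)
  have hyF := Xv_add4E hevR4 cu (z1 4) (hU0 4)
  have hxF' := Xv_add4E hevR7 ct (z1 5) (hT0 5)
  have hyF' := Xv_add4E hevR7 cu (z1 5) (hU0 5)
  rw [hx6] at hx8
  rw [hy6] at hy8
  rw [hx8] at hxF'
  rw [hy8] at hyF'
  -- nonvanishing
  have nz : ∀ {U : IrrCharacter G → ℤ} {n : ℤ}, IsU U → ev U 1 = (n : ℂ) → n ≠ 0 := by
    intro U n hU h h0
    apply ev_unit_one_ne hU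
    rw [h, h0]
    simp
  have hb0 : b ≠ 0 := nz hU2 hd2
  have hc0 : c' ≠ 0 := nz hU3 hd3
  have he0 : e ≠ 0 := nz hU4 hd4
  have hf0 : c' + e ≠ 0 := nz hU6 (n := c' + e) (by rw [hd6]; push_cast; ring)
  have hg0 : b + c' + e ≠ 0 := nz hU8 (n := b + c' + e) (by rw [hd8]; push_cast; ring)
  have hD0 : 1 + b + c' ≠ 0 := nz hFf (n := 1 + b + c') (by rw [hdF]; push_cast; ring)
  have hD'0 : 1 + e + (b + c' + e) ≠ 0 := nz hFf' (n := 1 + e + (b + c' + e)) (by rw [hdF']; push_cast; ring)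
  have hg1 : 1 + (b + c' + e) ≠ 0 := by
    intro h
    have h8 : ev U8 1 = -1 := by
      rw [hd8]
      have : ((1 + (b + c' + e) : ℤ) : ℂ) = 0 := by rw [h]; simp
      push_cast at this
      linear_combination this
    have h8' : ev U8' 1 = -1 := by
      have := z1 1
      rw [hevT2] at this
      simp only [Pi.sub_apply, h8] at this
      linear_combination -this
    have h3 := tau_val c 1 (rep 10)
    rw [hv', F1_val, hevT2] at h3
    simp only [Pi.sub_apply] at h3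
    have h4 := norm_le_of_neg hU8 h8 (ph φ (rep 10))
    have h5 := norm_le_of_neg hU8' h8' (ph φ (rep 10))
    have h6 := norm_sub_le (ev U8 (ph φ (rep 10))) (ev U8' (ph φ (rep 10)))
    rw [h3] at h6
    norm_num at h6
    linarith
  -- the equations
  have r1xx : Xv T ct U3 * Xv T ct U3 / (c' : ℂ) + Xv T ct U4 * Xv T ct U4 / (e : ℂ) - (Xv T ct U3 + Xv T ct U4) * (Xv T ct U3 + Xv T ct U4) / ((c' : ℂ) + (e : ℂ)) = 0 := by
    have h := key3 hU3 hU4 hU6 hevR1 hct0 hct0 (z1 2) (hT0 2) (hT0 2)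
      (D0 2 (by decide) (by decide) (Tv := 0) (by
      have e : msT 2 0 = 0 := by decide +kernel
      rw [e]
      norm_num))
    rw [hd3, hd4, hd6, hx6] at h
    linear_combination h
  have r1yy : Xv Uu cu U3 * Xv Uu cu U3 / (c' : ℂ) + Xv Uu cu U4 * Xv Uu cu U4 / (e : ℂ) - (Xv Uu cu U3 + Xv Uu cu U4) * (Xv Uu cu U3 + Xv Uu cu U4) / ((c' : ℂ) + (e : ℂ)) = 2 / 3 * κ := by
    have h := key3 hU3 hU4 hU6 hevR1 hcu0 hcu0 (z1 2) (hU0 2) (hU0 2)
      (D2 2 (by decide) (by decide) (Tv := 2 / 3) (by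
      have e : msT 2 2 = 36 := by decide +kernel
      rw [e]
      norm_num))
    rw [hd3, hd4, hd6, hy6] at h
    linear_combination h
  have r2xx : Xv T ct U2 * Xv T ct U2 / (b : ℂ) + (Xv T ct U3 + Xv T ct U4) * (Xv T ct U3 + Xv T ct U4) / ((c' : ℂ) + (e : ℂ)) - (Xv T ct U2 + (Xv T ct U3 + Xv T ct U4)) * (Xv T ct U2 + (Xv T ct U3 + Xv T ct U4)) / ((b : ℂ) + (c' : ℂ) + (e : ℂ)) = 8 / 3 * κ := by
    have h := key3 hU2 hU6 hU8 hevR2 hct0 hct0 (z1 3) (hT0 3) (hT0 3)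
      (D0 3 (by decide) (by decide) (Tv := 8 / 3) (by
      have e : msT 3 0 = 72 := by decide +kernel
      rw [e]
      norm_num))
    rw [hd2, hd6, hd8, hx8, hx6] at h
    linear_combination h
  have r2yy : Xv Uu cu U2 * Xv Uu cu U2 / (b : ℂ) + (Xv Uu cu U3 + Xv Uu cu U4) * (Xv Uu cu U3 + Xv Uu cu U4) / ((c' : ℂ) + (e : ℂ)) - (Xv Uu cu U2 + (Xv Uu cu U3 + Xv Uu cu U4)) * (Xv Uu cu U2 + (Xv Uu cu U3 + Xv Uu cu U4)) / ((b : ℂ) + (c' : ℂ) + (e : ℂ)) = 0 := by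
    have h := key3 hU2 hU6 hU8 hevR2 hcu0 hcu0 (z1 3) (hU0 3) (hU0 3)
      (D2 3 (by decide) (by decide) (Tv := 0) (by
      have e : msT 3 2 = 0 := by decide +kernel
      rw [e]
      norm_num))
    rw [hd2, hd6, hd8, hy8, hy6] at h
    linear_combination h
  have r4xx : Xv T ct U2 * Xv T ct U2 / (b : ℂ) + Xv T ct U3 * Xv T ct U3 / (c' : ℂ) - (Xv T ct U2 + Xv T ct U3) * (Xv T ct U2 + Xv T ct U3) / (1 + (b : ℂ) + (c' : ℂ)) = 8 / 3 * κ := by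
    have h := key4E hU2 hU3 hFf hevR4 hct0 hct0 (z1 4) (hT0 4) (hT0 4)
      (D0 4 (by decide) (by decide) (Tv := 8 / 3) (by
      have e : msT 4 0 = 72 := by decide +kernel
      rw [e]
      norm_num))
    rw [hd2, hd3, hdF, hxF] at h
    linear_combination h
  have r4xy : Xv T ct U2 * Xv Uu cu U2 / (b : ℂ) + Xv T ct U3 * Xv Uu cu U3 / (c' : ℂ) - (Xv T ct U2 + Xv T ct U3) * (Xv Uu cu U2 + Xv Uu cu U3) / (1 + (b : ℂ) + (c' : ℂ)) = 4 / 3 * κ := by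
    have h := key4E hU2 hU3 hFf hevR4 hct0 hcu0 (z1 4) (hT0 4) (hU0 4)
      (D1 4 (by decide) (by decide) (Tv := 4 / 3) (by
      have e : msT 4 1 = 72 := by decide +kernel
      rw [e]
      norm_num))
    rw [hd2, hd3, hdF, hxF, hyF] at h
    linear_combination h
  have r4yy : Xv Uu cu U2 * Xv Uu cu U2 / (b : ℂ) + Xv Uu cu U3 * Xv Uu cu U3 / (c' : ℂ) - (Xv Uu cu U2 + Xv Uu cu U3) * (Xv Uu cu U2 + Xv Uu cu U3) / (1 + (b : ℂ) + (c' : ℂ)) = 4 / 3 * κ := by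
    have h := key4E hU2 hU3 hFf hevR4 hcu0 hcu0 (z1 4) (hU0 4) (hU0 4)
      (D2 4 (by decide) (by decide) (Tv := 4 / 3) (by
      have e : msT 4 2 = 72 := by decide +kernel
      rw [e]
      norm_num))
    rw [hd2, hd3, hdF, hyF] at h
    linear_combination h
  have r7xx : Xv T ct U4 * Xv T ct U4 / (e : ℂ) + (Xv T ct U2 + (Xv T ct U3 + Xv T ct U4)) * (Xv T ct U2 + (Xv T ct U3 + Xv T ct U4)) / ((b : ℂ) + (c' : ℂ) + (e : ℂ)) - (Xv T ct U4 + (Xv T ct U2 + (Xv T ct U3 + Xv T ct U4))) * (Xv T ct U4 + (Xv T ct U2 + (Xv T ct U3 + Xv T ct U4))) / (1 + (e : ℂ) + ((b : ℂ) + (c' : ℂ) + (e : ℂ))) = 4 / 3 * κ := by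
    have h := key4E hU4 hU8 hFf' hevR7 hct0 hct0 (z1 5) (hT0 5) (hT0 5)
      (D0 5 (by decide) (by decide) (Tv := 4 / 3) (by
      have e : msT 5 0 = 36 := by decide +kernel
      rw [e]
      norm_num))
    rw [hd4, hd8, hdF', hxF', hx8] at h
    linear_combination h
  have r7xy : Xv T ct U4 * Xv Uu cu U4 / (e : ℂ) + (Xv T ct U2 + (Xv T ct U3 + Xv T ct U4)) * (Xv Uu cu U2 + (Xv Uu cu U3 + Xv Uu cu U4)) / ((b : ℂ) + (c' : ℂ) + (e : ℂ)) - (Xv T ct U4 + (Xv T ct U2 + (Xv T ct U3 + Xv T ct U4))) * (Xv Uu cu U4 + (Xv Uu cu U2 + (Xv Uu cu U3 + Xv Uu cu U4))) / (1 + (e : ℂ) + ((b : ℂ) + (c' : ℂ) + (e : ℂ))) = 2 / 3 * κ := by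
    have h := key4E hU4 hU8 hFf' hevR7 hct0 hcu0 (z1 5) (hT0 5) (hU0 5)
      (D1 5 (by decide) (by decide) (Tv := 2 / 3) (by
      have e : msT 5 1 = 36 := by decide +kernel
      rw [e]
      norm_num))
    rw [hd4, hd8, hdF', hxF', hyF', hx8, hy8] at h
    linear_combination h
  have r7yy : Xv Uu cu U4 * Xv Uu cu U4 / (e : ℂ) + (Xv Uu cu U2 + (Xv Uu cu U3 + Xv Uu cu U4)) * (Xv Uu cu U2 + (Xv Uu cu U3 + Xv Uu cu U4)) / ((b : ℂ) + (c' : ℂ) + (e : ℂ)) - (Xv Uu cu U4 + (Xv Uu cu U2 + (Xv Uu cu U3 + Xv Uu cu U4))) * (Xv Uu cu U4 + (Xv Uu cu U2 + (Xv Uu cu U3 + Xv Uu cu U4))) / (1 + (e : ℂ) + ((b : ℂ) + (c' : ℂ) + (e : ℂ))) = κ := by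
    have h := key4E hU4 hU8 hFf' hevR7 hcu0 hcu0 (z1 5) (hU0 5) (hU0 5)
      (D2 5 (by decide) (by decide) (Tv := 1) (by
      have e : msT 5 2 = 54 := by decide +kernel
      rw [e]
      norm_num))
    rw [hd4, hd8, hdF', hyF', hy8] at h
    linear_combination h
  obtain ⟨-, hc3, -⟩ := Cfsg.Agent.Lib.Alg648.alg648 b c' e hb0 hc0 he0 hf0 hg0 hD0 hD'0 hg1 κ _ _ _ _ _ _ hκ
    r1xx r1yy r2xx r2yy r4xx r4xy r4yy r7xx r7xy r7yy
  have hd33 : ev U3 1 = ((3 : ℕ) : ℂ) := by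
    rw [hd3, hc3]
    norm_num
  refine ⟨ev U3, ev_unit_irr hU3 (by norm_num) hd33, by rw [hd33]; norm_num, ?_⟩
  rw [hv', inner_ev, hR1]
  have h34 := h3l U4 (by simp)
  have h36 := h3l U6 (by simp)
  have h33 : U3 ⬝ᵥ U3 = 1 := hU3
  simp only [sub_dotProduct, add_dotProduct]
  rw [dotProduct_comm U4 U3, dotProduct_comm U6 U3, h34, h36, h33]
  norm_num

end Main

end Cfsg.Agent.Lib.M648Deg
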