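import Mathlib
import Cfsg.Agent.Lib.M648Deg
import Cfsg.Agent.Lib.H108Final
import Cfsg.Agent.Lib.BrauerWielandt
import Cfsg.Agent.Lib.CharKernel

/-!
# From the character of degree three to the normality of `J`
-/

set_option autoImplicit false

open scoped Pointwise

namespace Cfsg.Agent.Lib.M648Final

open Cfsg Matrix Complex
open Cfsg.Agent.Lib.CharBasic Cfsg.Agent.Lib.GenChar Cfsg.Agent.Lib.TiTau Cfsg.Agent.Lib.TiSet
open Cfsg.Agent.Lib.M648Model Cfsg.Agent.Lib.M648Chars Cfsg.Agent.Lib.M648Lat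
open Cfsg.Agent.Lib.M648Deg Cfsg.Agent.Lib.H108Final
open Cfsg.Agent.Lib.CharLattice (exists_degree_pos)
open scoped ComplexConjugate

/-- A character with the same degree as an irreducible constituent of it equals it. -/
theorem char_eq_of_constituent {K : Type*} [Group K] [Fintype K] {χ X : K → ℂ} (hχ : IsCharacter K χ)
    (hX : IsIrrCharacter K X) (h1 : χ 1 = X 1) (hne : classInner χ X ≠ 0) : χ = X := by
  classical
  obtain ⟨m, rfl⟩ := exists_nat_decomp hχ
  rw [classInner_nat_decomp m X hX] at hne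
  have hm0 : m ⟨X, hX⟩ ≠ 0 := by
    intro h
    rw [h] at hne
    simp at hne
  choose D hD hD' using fun i : IrrCharacter K => exists_degree_pos i.2
  have hsum : ∑ i, m i * D i = D ⟨X, hX⟩ := by
    have h2 := h1
    rw [Finset.sum_apply] at h2
    simp only [Pi.smul_apply, nsmul_eq_mul, hD'] at h2
    have h3 := hD' ⟨X, hX⟩
    simp only at h3
    rw [h3] at h2
    exact_mod_cast h2
  have hsplit : m ⟨X, hX⟩ * D ⟨X, hX⟩ + ∑ i ∈ Finset.univ.erase ⟨X, hX⟩, m i * D i = D ⟨X, hX⟩ := by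
    rw [Finset.add_sum_erase _ (fun i => m i * D i) (Finset.mem_univ _)]
    exact hsum
  have hpos := hD ⟨X, hX⟩
  have hm1 : m ⟨X, hX⟩ = 1 := by
    have h4 : m ⟨X, hX⟩ * D ⟨X, hX⟩ ≤ 1 * D ⟨X, hX⟩ := by omega
    have h5 : m ⟨X, hX⟩ ≤ 1 := Nat.le_of_mul_le_mul_right h4 hpos
    omega
  have hrest : ∑ i ∈ Finset.univ.erase ⟨X, hX⟩, m i * D i = 0 := by
    rw [hm1] at hsplit
    omega
  have hzero : ∀ i, i ≠ (⟨X, hX⟩ : IrrCharacter K) → m i = 0 := by
    intro i hi
    have h6 := (Finset.sum_eq_zero_iff.1 hrest) i (by simp [hi])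
    rcases Nat.mul_eq_zero.1 h6 with h7 | h7
    · exact h7
    · exact absurd h7 (hD i).ne'
  rw [Finset.sum_eq_single (⟨X, hX⟩ : IrrCharacter K)]
  · rw [hm1]
    simp
  · intro i _ hi
    rw [hzero i hi]
    simp
  · intro h
    exact absurd (Finset.mem_univ _) h

section Ker

variable {G : Type*} [Group G] [Fintype G] {N : Subgroup G} {φ : M648 ≃* N}

/-- The restriction of `ψ` is one of the two characters of degree three. -/
theorem ker_of_three {ψ : G → ℂ} (hψ : IsIrrCharacter G ψ) (h3 : ψ 1 = 3)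
    (hr : classInner (tauC φ (F 2)) ψ = 1) (w : M648) : ψ (ph φ w) = 3 ↔ w.2 = 0 := by
  classical
  have hψc := IsIrrCharacter.isCharacter hψ
  let f : M648 →* G := N.subtype.comp φ.toMonoidHom
  have hf : ∀ w, f w = ph φ w := fun _ => rfl
  have hρ : IsCharacter M648 (ψ ∘ f) := isCharacter_comp f hψc
  have hcM : (Nat.card M648 : ℂ) = (Fintype.card M648 : ℂ) := by rw [Nat.card_eq_fintype_card]
  have h1 := tauC_inner φ (F 2) (isClassFunction_of_isCharacter hψc)
  rw [hr] at h1
  have h2 : classInner (F 2) (ψ ∘ f) = 1 := by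
    unfold classInner
    rw [hcM, h1]
    rfl
  have h4 : classInner (X 3) (ψ ∘ f) + classInner (X 4) (ψ ∘ f) - classInner (X 5) (ψ ∘ f) = 1 := by
    have e : F 2 = X 3 + X 4 - X 5 := by
      funext w
      exact F2_eq w
    rw [e, classInner_sub_left, classInner_add_left] at h2
    exact h2
  obtain ⟨m3, hm3⟩ := classInner_char_char (isChar_X 3) hρ
  obtain ⟨m4, hm4⟩ := classInner_char_char (isChar_X 4) hρ
  obtain ⟨m5, hm5⟩ := classInner_char_char (isChar_X 5) hρ
  rw [hm3, hm4, hm5] at h4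
  have h5 : m3 + m4 = 1 + m5 := by
    have : (m3 : ℂ) + m4 = 1 + m5 := by linear_combination h4
    exact_mod_cast this
  have hdeg : (ψ ∘ f) 1 = 3 := by
    simp only [Function.comp, map_one, h3]
  have hX1 : ∀ i : Fin 13, i = 3 ∨ i = 4 → X i 1 = 3 := by
    intro i hi
    exact (X34_eq i hi 1).2 rfl
  have key : ∀ i : Fin 13, i = 3 ∨ i = 4 → classInner (X i) (ψ ∘ f) ≠ 0 → (ψ (ph φ w) = 3 ↔ w.2 = 0) := by
    intro i hi hne
    have h6 : classInner (ψ ∘ f) (X i) ≠ 0 := by
      intro h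
      apply hne
      rw [← classInner_conj_symm, h]
      simp
    have h7 := char_eq_of_constituent hρ (X_irr i hi) (by rw [hdeg, hX1 i hi]) h6
    rw [← X34_eq i hi w, ← h7]
    rfl
  by_cases hm : m3 = 0
  · apply key 4 (Or.inr rfl)
    rw [hm4]
    have : m4 ≠ 0 := by omega
    exact_mod_cast this
  · apply key 3 (Or.inl rfl)
    rw [hm3]
    exact_mod_cast hm

end Ker

section FinalCore

variable {G : Type*} [Group G] [Fintype G]

/-- The core: a normal subgroup `K` containing a TI subgroup `J`, meeting the control subgroup in `J`,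
and with `J` elementary abelian of order `27`, equals `J`. -/
theorem final_core (J K N : Subgroup G) (hKn : K.Normal) (hJK : J ≤ K)
    (hE : Cfsg.IsElementaryAbelian 3 J) (h27 : Nat.card J = 27)
    (hKN : ∀ g ∈ K, g ∈ N → g ∈ J)
    (hti : ∀ t ∈ J, t ≠ 1 → ∀ z : G, z * t * z⁻¹ ∈ J → z ∈ N)
    (hloc : ∀ t ∈ J, t ≠ 1 → Subgroup.centralizer ({t} : Set G) ≤ N) : K = J := by
  classical
  have hcomm : ∀ x ∈ J, ∀ y ∈ J, x * y = y * x := by
    intro x hx y hy
    have := hE.1.is_comm.comm (⟨x, hx⟩ : J) ⟨y, hy⟩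
    exact congrArg Subtype.val this
  obtain ⟨a, ha, ha1⟩ : ∃ a ∈ J, a ≠ 1 := by
    by_contra hall
    push Not at hall
    have : J = ⊥ := (Subgroup.eq_bot_iff_forall J).2 hall
    rw [this] at h27
    simp at h27
  -- `J` is Sylow in `K`
  have hp : IsPGroup 3 J := IsPGroup.of_card (n := 3) (by rw [h27]; norm_num)
  let J₀ : Subgroup K := J.subgroupOf K
  have hJ₀mem : ∀ x : K, x ∈ J₀ ↔ (x : G) ∈ J := fun x => Subgroup.mem_subgroupOf
  have hJ₀p : IsPGroup 3 J₀ := by
    apply hp.of_equiv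
    exact (Subgroup.subgroupOfEquivOfLe hJK).symm
  obtain ⟨Q, hQ⟩ := hJ₀p.exists_le_sylow
  have hnorm : ∀ h : K, (∀ x : K, x ∈ J₀ ↔ h * x * h⁻¹ ∈ J₀) → (h : G) ∈ J := by
    intro h hh
    apply hKN _ h.2
    apply hti a ha ha1
    have h1 : (⟨a, hJK ha⟩ : K) ∈ J₀ := (hJ₀mem _).2 ha
    have h2 := (hh _).1 h1
    exact (hJ₀mem _).1 h2
  have hQeq : (Q : Subgroup K) = J₀ := by
    by_contra hne
    have hlt : J₀ < (Q : Subgroup K) := lt_of_le_of_ne hQ (Ne.symm hne)
    let T₀ : Subgroup (Q : Subgroup K) := J₀.subgroupOf (Q : Subgroup K)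
    have hT₀ : T₀ < ⊤ := by
      rw [lt_top_iff_ne_top]
      intro h
      apply hne
      apply le_antisymm ?_ hQ
      intro x hx
      have h2 : (⟨x, hx⟩ : (Q : Subgroup K)) ∈ T₀ := by
        rw [h]
        trivial
      exact h2
    have : Group.IsNilpotent (Q : Subgroup K) := Q.isPGroup'.isNilpotent
    have hn := Group.normalizerCondition_of_isNilpotent T₀ hT₀
    obtain ⟨g, hg1, hg2⟩ := SetLike.exists_of_lt hn
    apply hg2
    have h3 : ((g : K) : G) ∈ J := by
      apply hnorm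
      intro x
      constructor
      · intro hx
        have h4 : (⟨x, hQ hx⟩ : (Q : Subgroup K)) ∈ T₀ := hx
        have h5 := (Subgroup.mem_normalizer_iff.mp hg1 _).mp h4
        exact h5
      · intro hx
        have h6 : g⁻¹ ∈ Subgroup.normalizer (T₀ : Set (Q : Subgroup K)) := by
          exact Subgroup.inv_mem _ hg1
        have h4 : (⟨(g : K) * x * (g : K)⁻¹, hQ hx⟩ : (Q : Subgroup K)) ∈ T₀ := hx
        have h5 := (Subgroup.mem_normalizer_iff.mp h6 _).mp h4
        have h7 : ((g : K)⁻¹ * ((g : K) * x * (g : K)⁻¹) * (g : K)⁻¹⁻¹) = x := by group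
        have h8 : (⟨x, (Q : Subgroup K).mul_mem ((Q : Subgroup K).mul_mem ((Q : Subgroup K).inv_mem g.2) (hQ hx))
            ((Q : Subgroup K).inv_mem ((Q : Subgroup K).inv_mem g.2)) |> fun hh => by rwa [h7] at hh⟩ :
            (Q : Subgroup K)) ∈ T₀ := by
          convert h5 using 2
          exact h7.symm
        exact h8
    exact (hJ₀mem _).2 h3
  have hQmem : ∀ x : K, x ∈ (Q : Subgroup K) ↔ (x : G) ∈ J := by
    intro x
    rw [hQeq]
    exact hJ₀mem x
  -- Burnside's transfer theorem in `K`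
  have hQc : Subgroup.normalizer ((Q : Subgroup K) : Set K) ≤
      Subgroup.centralizer ((Q : Subgroup K) : Set K) := by
    intro h hh
    have h4 : (h : G) ∈ J := by
      apply hnorm
      intro x
      rw [← hQeq]
      exact Subgroup.mem_normalizer_iff.mp hh x
    rw [Subgroup.mem_centralizer_iff]
    intro x hx
    apply Subtype.ext
    exact hcomm _ ((hQmem _).mp hx) _ h4
  have hcomp := MonoidHom.ker_transferSylow_isComplement' Q hQc
  have hR3 := MonoidHom.not_dvd_card_ker_transferSylow Q hQc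
  set R := MonoidHom.ker (MonoidHom.transferSylow Q hQc) with hR
  have hRn : R.Normal := MonoidHom.normal_ker _
  let L : Subgroup G := R.map K.subtype
  have hcardL : Nat.card L = Nat.card R :=
    Nat.card_congr (R.equivMapOfInjective _ K.subtype_injective).toEquiv.symm
  have hLK : ∀ x ∈ L, x ∈ K := by
    rintro _ ⟨r, -, rfl⟩
    exact r.2
  have hLinf : ∀ x ∈ L, x ∈ J → x = 1 := by
    rintro _ ⟨r, hr, rfl⟩ hT'
    have h1 : r ∈ (Q : Subgroup K) := (hQmem r).mpr hT'
    have h2 : r = 1 := Subgroup.disjoint_def.mp hcomp.disjoint hr h1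
    simp [h2]
  have hJL : J ≤ Subgroup.normalizer (L : Set G) := by
    intro t ht
    apply Subgroup.mem_normalizer_fintype
    rintro _ ⟨r, hr, rfl⟩
    have h1 := hRn.conj_mem r hr ⟨t, hJK ht⟩
    exact ⟨_, h1, rfl⟩
  have hfac : ∀ b ∈ J, b ≠ 1 →
      ((L ⊓ Subgroup.centralizer {b} : Subgroup G) : Set G) =
        (((⊥ : Subgroup G) ⊓ Subgroup.centralizer {b} : Subgroup G) : Set G) *
        (((⊥ : Subgroup G) ⊓ Subgroup.centralizer {b} : Subgroup G) : Set G) := by
    intro b hb hb1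
    have hK1 : L ⊓ Subgroup.centralizer {b} = ⊥ := by
      rw [eq_bot_iff]
      rintro x ⟨hx1, hx2⟩
      have h1 : x ∈ N := hloc b hb hb1 hx2
      have h2 := hKN x (hLK x hx1) h1
      exact Subgroup.mem_bot.mpr (hLinf x hx1 h2)
    rw [hK1]
    simp
  have hL0 : (L : Set G) = ((⊥ : Subgroup G) : Set G) * ((⊥ : Subgroup G) : Set G) :=
    Cfsg.Agent.Lib.BrauerWielandt.factorization_of_noncyclic (p := 3) J L ⊥ ⊥ hE
      (by rw [h27]; norm_num) (by rw [hcardL]; exact hR3) hJL bot_le bot_le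
      (by
        intro t _
        apply Subgroup.mem_normalizer_fintype
        intro n hn
        have h1 : n = 1 := hn
        simp [h1])
      (by
        intro t _
        apply Subgroup.mem_normalizer_fintype
        intro n hn
        have h1 : n = 1 := hn
        simp [h1])
      hfac
  have hL1 : L = ⊥ := by
    rw [eq_bot_iff]
    intro x hx
    have h1 : x ∈ (L : Set G) := hx
    rw [hL0] at h1
    simpa using h1
  have hR1 : Nat.card R = 1 := by
    rw [← hcardL, hL1]
    exact Subgroup.card_bot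
  have hcardK : Nat.card K = Nat.card (Q : Subgroup K) := by
    have := hcomp.card_mul_card
    rw [hR1, one_mul] at this
    exact this.symm
  have hcardQ : Nat.card (Q : Subgroup K) = Nat.card J := by
    rw [hQeq]
    exact Nat.card_congr (Subgroup.subgroupOfEquivOfLe hJK).toEquiv
  exact (Subgroup.eq_of_le_of_card_ge hJK (by rw [hcardK, hcardQ])).symm

end FinalCore

end Cfsg.Agent.Lib.M648Final
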