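import Mathlib

/-!
# The model group `3³:S₄` of order `648`, with multiplication tables as numbers
-/

set_option autoImplicit false
set_option maxRecDepth 100000

namespace Cfsg.Agent.Lib.M648Model

def tADD : Nat := 75150505046255314798489685391020665237269972839199016236531863363015665923001742456229351084689902038717653518106513130657617068951229356428726003026906558492358800083830573113440275144003476052792566941892602299777882364067977349437797343320406671996792905576379887716021511817167104349238407880929698114267539042482426851509991408548239687044287684350879104229713496183531221886070170445757491667269417590182330052389652361431412526514097498441893367359840187151311886577666816048503013842125104194134019618082310076531812189072690233597194014516619233243125301861877697925561107732711607147553334350514889071336740785786945591258504409916514741656346870155555294402327657245846420144069164440426495388895400094139477523038370528629171041859228100866534512951703527148976704232518721536083035883438230600251534393140141788263715281931504014876240028758486139783903237238956894586976306404170572266036570986620563972084529839927404151829155220209832186651094278309047543203462320134402358042272281330674243114372448018502334876350344569499375583300284542602561201339169671287012408772920583751712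
def tNEG : Nat := 18306815260805972811530360991366254888000
def tMUL : Nat := 58751848159593976002925800757927287267899673023736223444235420684426268434179452372747926348020380620591043863995616773386379508092575420561340650244989963844404712643063774272881989766756308530267514076509963196273767924364236683072507501125020868850631592410777387939334344390773658628845984820707262310055006767694069518458474076003360969971285599994134103029976659512585264247944485773657742249611113211289950342479986569818048695149937687061588521932470039755442169727277226974067299929796671313876298073020897081837599809966132446415197447046800430153982084172394830106172719828482415132886167609588318998830885094047733269918508468246661560295212862219149432702042772620009416242248868887029826711062296836682429494253698436264579989041332611994460857062182879278086556949309328902546642147505594602084448266871238179306693194410775571405537098378662291540000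
def tINV : Nat := 901822458434117747445168464375941152
def tACT : Nat := 1732623523469100919125187321575758427799656184286993171184056364614910399465392621338831112312828046808600076383712408211485906501875156858737532060504075009253449599221131890403196858300493938534643423827296135994037809518965406197443850891731280150031484775404486466698582087029931883852797435185172668963261235707348157620194728579792650785700427382269160013608165618222279541317975494105031496749421485157205870240361393526242170403921545506439127986686423971425573540009762547472544695791075347268463711405137907694887867356567787032042195807175033854937449204474098168750913261915640496061787603644279761103039878902839042431791122945915543031926463420323494788626259375197000504040595022941105432257324981632422687137567328726102852980601057670253832488780933826173919859518079800647602146405480050530710372380243798032868716202584586668247862933803512787145335666461289036989422024453555937617629739129870610527237793588465852482517835053187967101826714554983524698144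
def tCL : Nat := 992508471205370974774632137800591476028227003881801165364921041812854352242604051852861128060971989311629398403874593700039741805010347964894496096374718026797050506193564731100174364273680945854087056728411308223008216222159716705249261298218557174002775264396113973728820553055922767684642875679733008778379919185395217638575000493595419704974958738773442991979958260523407066190584468013975045786627751479349839663239884760423007160456384494171814521209062047061860728837305147183889042934361063194844398434385546117581180501650476195778506750014035583367898307686346742211714044704200861432817475223529229708419089351193449432640025480240474717526864122040284643270941138379785121137345229246841668303310955948436924202569929229052839966940825979560138066938875149635849835856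
def tCW : Nat := 10806407271448846195572885210268229891679001037973823227328704175947488126102745675843743647151132351080746919009188439046657115551203576170645130236225999339871781656029898184977566583471684670649979435481713078046586870698063232168880755810520428319003798110987479101942894583425634037220650339109402573868025247001177945745605901033055369218203830750082371084059996767466684967719063736531519516401540625112952471751517649131644574930052727380334041296485270700254877339610465018138554606565085498421889467368534398212910775994074998284968240912981831536408494052603243909404608993863912352399879538383475518860719994676311516598994179296912444900758024330185309250854250216093209845562632373903035453217302223598729227678618401383156579909125847105213610676059602090659274436894419653322015543012011058424883453620100527728556215971498920962865900847274389006972851393010890869284381337511116633389043306202492107161791866048257668578669073352735589534405436220088326681313131886168571465284211586082955106816661923935654461273232823407672963301289603475533463806619120514704667125476661485704229982509950870203954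20120043688702642492520664884456976797179353018738097177136135219571560120864271562749213129426215184991445405525392548492550795148141539401950472763407309908488397594094343307010903224474655862272064415136911763083645242686906119410905697403984621763922422467383807473331865670389920880225591459105988861455997161438456260079181579312366680064307754772528486371590400484508944818044363334604579838571281856990594562131903782511803218371558620792760131541005212522796505898501733773461745701714671208063546122498167449618783015101324618648197130757067970764566766107529552602927561373095524628162580275743457955176834223747949163966513420141056935874385343972162909928172148866435803929275742235356802026989355172316418072946996906540549847327197857146223401891055117072001160036621607436804345981684872006216647401815266317160153088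
def tDEP : Nat := 861624257252606932653815162942736645923845700883271561804570867762038964261453823195432598268939654378349257773974822772756944728672127636703525503386157258993303554326417620455488060762740229721810142645748102784850225363995778656060479462900924242608971753229444602431006913800478027937248840413883050906722040386960413028252262761569703976835031905055685148807321223478221733438799738906755347244496152088301351494744932451595343665304648297102858914459568800499515075512540756264369033559116146091858913809121388600885338260989371036845928799825014001168285564461005484751493307322137312255519370232110459762440673371141551714539730121393166194827901351951985383442506187741933613246402769369561710410508611704802904020431517848141137725949574610935466527263911633631304757776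
def tTT : Nat := 18479677943283424684626721705525737883980849539733995682582637575364877039622582522398194083557373129088586388234384272714666414880916620709803866071046893577187998790147030135028823232157713278699207800440741531940850119648190785442245037287791601649879940746699766325126080947977640673030672
def tLL : Nat := 8658538874521499703354394149898985408564536095034196170726340997778445021747818656062165871969695083903852726663399175752912913085391575969323977409281206879559783670812199796255304042693339446286742174123216781614165775971254495662468568932986250922504237584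
def tREP : Nat := 17700457326250798779554590506626423221248

def addJ (x y : Fin 27) : Fin 27 := ⟨Nat.mod (Nat.land (Nat.shiftRight tADD (Nat.mul 5 (Nat.add (Nat.mul 27 x.1) y.1))) 31) 27, Nat.mod_lt _ (by norm_num)⟩
def negJ (x : Fin 27) : Fin 27 := ⟨Nat.mod (Nat.land (Nat.shiftRight tNEG (Nat.mul 5 x.1)) 31) 27, Nat.mod_lt _ (by norm_num)⟩
def mulA (a b : Fin 24) : Fin 24 := ⟨Nat.mod (Nat.land (Nat.shiftRight tMUL (Nat.mul 5 (Nat.add (Nat.mul 24 a.1) b.1))) 31) 24, Nat.mod_lt _ (by norm_num)⟩
def invA (a : Fin 24) : Fin 24 := ⟨Nat.mod (Nat.land (Nat.shiftRight tINV (Nat.mul 5 a.1)) 31) 24, Nat.mod_lt _ (by norm_num)⟩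
def actA (a : Fin 24) (x : Fin 27) : Fin 27 := ⟨Nat.mod (Nat.land (Nat.shiftRight tACT (Nat.mul 5 (Nat.add (Nat.mul 27 a.1) x.1))) 31) 27, Nat.mod_lt _ (by norm_num)⟩

/-- The group `3³:S₄` as a set of pairs: a code of a vector of `F₃³` and the index of a rotation. -/
def M648 := Fin 27 × Fin 24

instance : DecidableEq M648 := inferInstanceAs (DecidableEq (Fin 27 × Fin 24))
instance : Fintype M648 := inferInstanceAs (Fintype (Fin 27 × Fin 24))
instance : Mul M648 := ⟨fun u w => (addJ u.1 (actA u.2 w.1), mulA u.2 w.2)⟩
instance : One M648 := ⟨(0, 0)⟩
instance : Inv M648 := ⟨fun u => (actA (invA u.2) (negJ u.1), invA u.2)⟩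

theorem add_assoc' : ∀ x y z, addJ (addJ x y) z = addJ x (addJ y z) := by decide +kernel
theorem act_add : ∀ a x y, actA a (addJ x y) = addJ (actA a x) (actA a y) := by decide +kernel
theorem act_mul : ∀ a b x, actA (mulA a b) x = actA a (actA b x) := by decide +kernel
theorem mulA_assoc : ∀ x y z, mulA (mulA x y) z = mulA x (mulA y z) := by decide +kernel
theorem M_one_mul : ∀ u : M648, 1 * u = u := by decide +kernel
theorem M_inv_mul : ∀ u : M648, u⁻¹ * u = 1 := by decide +kernel

theorem M_mul_assoc (u v w : M648) : u * v * w = u * (v * w) := by
  apply Prod.ext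
  · show addJ (addJ u.1 (actA u.2 v.1)) (actA (mulA u.2 v.2) w.1) =
      addJ u.1 (actA u.2 (addJ v.1 (actA v.2 w.1)))
    rw [act_add, act_mul, add_assoc']
  · exact mulA_assoc _ _ _

instance : Group M648 := Group.ofLeftAxioms M_mul_assoc M_one_mul M_inv_mul

theorem card_M : Fintype.card M648 = 648 := by decide +kernel

theorem mul_fst (u v : M648) : (u * v).1 = addJ u.1 (actA u.2 v.1) := rfl
theorem mul_snd (u v : M648) : (u * v).2 = mulA u.2 v.2 := rfl
theorem inv_snd (u : M648) : (u⁻¹).2 = invA u.2 := rfl
theorem one_snd : (1 : M648).2 = 0 := rfl

/-- Pairs as elements. -/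
def mk (x : Fin 27) (A : Fin 24) : M648 := (x, A)

/-- Decode the code of an element. -/
def decM (c : Nat) : M648 := (⟨Nat.mod c 27, Nat.mod_lt _ (by norm_num)⟩, ⟨Nat.mod (Nat.div c 27) 24, Nat.mod_lt _ (by norm_num)⟩)

/-- The class of an element. -/
def cl (w : M648) : Fin 14 := ⟨Nat.mod (Nat.land (Nat.shiftRight tCL (Nat.mul 4 (Nat.add w.1.1 (Nat.mul 27 w.2.1)))) 15) 14, Nat.mod_lt _ (by norm_num)⟩

/-- The representative of a class. -/
def rep (c : Fin 14) : M648 := decM (Nat.land (Nat.shiftRight tREP (Nat.mul 10 c.1)) 1023)

/-- A conjugating element from the representative. -/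
def conjW (w : M648) : M648 := decM (Nat.land (Nat.shiftRight tCW (Nat.mul 10 (Nat.add w.1.1 (Nat.mul 27 w.2.1)))) 1023)

theorem cl_rep : ∀ c, cl (rep c) = c := by decide +kernel
theorem conjW_spec : ∀ w, conjW w * rep (cl w) * (conjW w)⁻¹ = w := by decide +kernel
theorem cl_conj_T : ∀ (x : Fin 27) (w : M648), cl (mk x 0 * w * (mk x 0)⁻¹) = cl w := by decide +kernel
theorem cl_conj_R : ∀ (A : Fin 24) (w : M648), cl (mk 0 A * w * (mk 0 A)⁻¹) = cl w := by decide +kernel
theorem decomp_M : ∀ g : M648, g = mk g.1 0 * mk 0 g.2 := by decide +kernel

theorem cl_conj (g w : M648) : cl (g * w * g⁻¹) = cl w := by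
  have h : g * w * g⁻¹ = mk g.1 0 * (mk 0 g.2 * w * (mk 0 g.2)⁻¹) * (mk g.1 0)⁻¹ := by
    conv_lhs => rw [decomp_M g]
    group
  rw [h, cl_conj_T, cl_conj_R]

theorem conj_of_cl {v w : M648} (h : cl v = cl w) : ∃ g, g * v * g⁻¹ = w := by
  refine ⟨conjW w * (conjW v)⁻¹, ?_⟩
  have h1 := conjW_spec v
  have h2 := conjW_spec w
  rw [← h] at h2
  have e : (conjW v)⁻¹ * v * conjW v = rep (cl v) := by
    calc _ = (conjW v)⁻¹ * (conjW v * rep (cl v) * (conjW v)⁻¹) * conjW v := by rw [h1]
      _ = _ := by group
  calc conjW w * (conjW v)⁻¹ * v * (conjW w * (conjW v)⁻¹)⁻¹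
      = conjW w * ((conjW v)⁻¹ * v * conjW v) * (conjW w)⁻¹ := by group
    _ = conjW w * rep (cl v) * (conjW w)⁻¹ := by rw [e]
    _ = w := h2

/-! ### The normal subgroup `J` -/

/-- The normal subgroup `F₃³`. -/
def JM : Subgroup M648 where
  carrier := {w | w.2 = 0}
  mul_mem' := by
    intro a b ha hb
    have ha' : a.2 = 0 := ha
    have hb' : b.2 = 0 := hb
    show (a * b).2 = 0
    rw [mul_snd, ha', hb']
    decide +kernel
  one_mem' := rfl
  inv_mem' := by
    intro a ha
    have ha' : a.2 = 0 := ha
    show (a⁻¹).2 = 0
    rw [inv_snd, ha']
    decide +kernel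

theorem mem_JM {w : M648} : w ∈ JM ↔ w.2 = 0 := Iff.rfl

theorem J_cl : ∀ w : M648, w.2 = 0 ↔ (cl w = 0 ∨ cl w = 5 ∨ cl w = 12 ∨ cl w = 13) := by decide +kernel

instance : JM.Normal := ⟨by
  intro n hn g
  rw [mem_JM, J_cl, cl_conj, ← J_cl]
  exact hn⟩

theorem J_comm : ∀ u v : M648, u.2 = 0 → v.2 = 0 → u * v = v * u := by decide +kernel
theorem J_pow3 : ∀ u : M648, u.2 = 0 → u ^ 3 = 1 := by decide +kernel
theorem J_card : (Finset.univ.filter (fun w : M648 => w.2 = 0)).card = 27 := by decide +kernel

/-! ### Regular classes -/

theorem pow_reg : ∀ w : M648, 5 ≤ (cl w).1 →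
    ((w ^ 4).2 = 0 ∧ w ^ 4 ≠ 1) ∨ ((w ^ 12).2 = 0 ∧ w ^ 12 ≠ 1) := by decide +kernel

/-- The orders of the centralizers in `J`. -/
def centT (c : Fin 14) : ℕ := if c = 5 then 108 else if c = 12 then 54 else 81

theorem cent_J : ∀ w : M648, w.2 = 0 → w ≠ 1 →
    (Finset.univ.filter (fun v : M648 => v * w = w * v)).card = centT (cl w) := by decide +kernel

theorem one_cl : ∀ w : M648, cl w = 0 ↔ w = 1 := by decide +kernel

theorem centT_inj : ∀ c d : Fin 14, (c = 5 ∨ c = 12 ∨ c = 13) → (d = 5 ∨ d = 12 ∨ d = 13) →
    centT c = centT d → c = d := by decide +kernel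

theorem J_conj_of_cent {v w : M648} (hv : v.2 = 0) (hw : w.2 = 0) (hv1 : v ≠ 1) (hw1 : w ≠ 1)
    (h : (Finset.univ.filter (fun g : M648 => g * v = v * g)).card =
      (Finset.univ.filter (fun g : M648 => g * w = w * g)).card) : ∃ g, g * v * g⁻¹ = w := by
  rw [cent_J v hv hv1, cent_J w hw hw1] at h
  have h1 : cl v ≠ 0 := fun h' => hv1 ((one_cl v).1 h')
  have h2 : cl w ≠ 0 := fun h' => hw1 ((one_cl w).1 h')
  have h3 := (J_cl v).1 hv
  have h4 := (J_cl w).1 hw
  apply conj_of_cl
  exact centT_inj _ _ (by simpa [h1] using h3) (by simpa [h2] using h4) h

/-! ### Involutions -/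

/-- The representatives of the two classes of involutions. -/
def t0 : M648 := mk 0 1
def u0 : M648 := mk 0 4
/-- Elements of `J` commuting with them. -/
def et : M648 := mk 9 0
def eu : M648 := mk 15 0

theorem t0_eq : t0 = rep 1 := by decide +kernel
theorem u0_eq : u0 = rep 2 := by decide +kernel
theorem inv_class : ∀ w : M648, w * w = 1 → w = 1 ∨ cl w = 1 ∨ cl w = 2 := by decide +kernel
theorem t0_sq : t0 * t0 = 1 := by decide +kernel
theorem u0_sq : u0 * u0 = 1 := by decide +kernel
theorem cl_t0 : cl t0 = 1 := by decide +kernel
theorem cl_u0 : cl u0 = 2 := by decide +kernel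
theorem t0_ne : t0 ≠ 1 := by decide +kernel
theorem u0_ne : u0 ≠ 1 := by decide +kernel
theorem et_J : et.2 = 0 := by decide +kernel
theorem eu_J : eu.2 = 0 := by decide +kernel
theorem et_ne : et ≠ 1 := by decide +kernel
theorem eu_ne : eu ≠ 1 := by decide +kernel
theorem et_cube : et ^ 3 = 1 := by decide +kernel
theorem eu_cube : eu ^ 3 = 1 := by decide +kernel
theorem et_comm : et * t0 = t0 * et := by decide +kernel
theorem eu_comm : eu * u0 = u0 * eu := by decide +kernel

/-- Cubing. -/
def cb (w : M648) : M648 := w * w * w

/-- The `81`-st power by repeated cubing. -/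
def c81 (w : M648) : M648 := cb (cb (cb (cb w)))

theorem cb_eq (w : M648) : cb w = w ^ 3 := by
  unfold cb
  rw [pow_succ, pow_two]

theorem c81_eq (w : M648) : c81 w = w ^ 81 := by
  unfold c81
  simp only [cb_eq, ← pow_mul]

theorem C3_u0 : ∀ v : M648, v * u0 = u0 * v → c81 v = 1 → v = 1 ∨ v = eu ∨ v = eu * eu := by
  decide +kernel

theorem not_J_aux : ∀ w : M648, w.2 ≠ 0 → c81 w ≠ 1 ∨ c81 (w * t0 * w⁻¹ * t0⁻¹) ≠ 1 := by
  decide +kernel

/-- An element of `M` of `3`-power order has order dividing `81`. -/
theorem pow81_of_three_pow (w : M648) (k : ℕ) (h : w ^ (3 ^ k) = 1) : w ^ 81 = 1 := by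
  have h1 := orderOf_dvd_of_pow_eq_one h
  obtain ⟨m, hm, hm2⟩ := (Nat.dvd_prime_pow Nat.prime_three).mp h1
  have h2 : orderOf w ∣ 648 := by
    rw [← card_M]
    exact orderOf_dvd_card
  rw [hm2] at h2
  have h3 : m ≤ 4 := by
    by_contra hlt
    have h4 : 3 ^ 5 ∣ 3 ^ m := pow_dvd_pow 3 (by omega)
    have h5 : 3 ^ 5 ∣ 648 := h4.trans h2
    norm_num at h5
  rw [← orderOf_dvd_iff_pow_eq_one, hm2]
  have h6 : 3 ^ m ∣ 3 ^ 4 := pow_dvd_pow 3 h3
  simpa using h6

/-! ### The permutation representation -/

def psiT (x : Fin 27) (p : Fin 9) : Fin 9 := ⟨Nat.mod (Nat.land (Nat.shiftRight tTT (Nat.mul 4 (Nat.add (Nat.mul 9 x.1) p.1))) 15) 9, Nat.mod_lt _ (by norm_num)⟩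
def psiL (A : Fin 24) (p : Fin 9) : Fin 9 := ⟨Nat.mod (Nat.land (Nat.shiftRight tLL (Nat.mul 4 (Nat.add (Nat.mul 9 A.1) p.1))) 15) 9, Nat.mod_lt _ (by norm_num)⟩

/-- The action on nine points. -/
def psiF (u : M648) (p : Fin 9) : Fin 9 := psiT u.1 (psiL u.2 p)

theorem T_add : ∀ x y p, psiT (addJ x y) p = psiT x (psiT y p) := by decide +kernel
theorem L_mul : ∀ A B p, psiL (mulA A B) p = psiL A (psiL B p) := by decide +kernel
theorem L_T : ∀ A y p, psiL A (psiT y p) = psiT (actA A y) (psiL A p) := by decide +kernel
theorem psiF_one : ∀ p, psiF 1 p = p := by decide +kernel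

theorem psiF_mul (u w : M648) (p : Fin 9) : psiF (u * w) p = psiF u (psiF w p) := by
  show psiT (addJ u.1 (actA u.2 w.1)) (psiL (mulA u.2 w.2) p) = psiT u.1 (psiL u.2 (psiT w.1 (psiL w.2 p)))
  rw [T_add, L_mul, L_T]

/-- The action as a permutation. -/
def Psi (u : M648) : Equiv.Perm (Fin 9) where
  toFun := psiF u
  invFun := psiF u⁻¹
  left_inv := fun p => by rw [← psiF_mul, inv_mul_cancel, psiF_one]
  right_inv := fun p => by rw [← psiF_mul, mul_inv_cancel, psiF_one]

/-- The action as a homomorphism. -/
def PsiHom : M648 →* Equiv.Perm (Fin 9) :=
  MonoidHom.mk' Psi (fun u w => Equiv.ext (psiF_mul u w))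

theorem Psi_apply (u : M648) (p : Fin 9) : PsiHom u p = psiF u p := rfl

theorem Psi_ker_aux : ∀ u : M648, (∀ p, psiF u p = p) → u = 1 := by decide +kernel

theorem Psi_inj : Function.Injective PsiHom := by
  rw [injective_iff_map_eq_one]
  intro u hu
  apply Psi_ker_aux
  intro p
  rw [← Psi_apply, hu]
  rfl

def g0 : M648 := mk 1 0
def g1 : M648 := mk 0 15
def g2 : M648 := mk 4 1
def g3 : M648 := mk 9 11

theorem Psi_g0 : PsiHom g0 = Equiv.swap (0 : Fin 9) 1 * Equiv.swap 1 2 := by
  apply Equiv.ext
  have h : ∀ p, psiF g0 p = ((Equiv.swap (0 : Fin 9) 1 * Equiv.swap 1 2 : Equiv.Perm (Fin 9))) p := by decide +kernel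
  exact h
theorem Psi_g1 : PsiHom g1 = Equiv.swap (0 : Fin 9) 3 * Equiv.swap 3 6 * (Equiv.swap 1 4 * Equiv.swap 4 7) *
    (Equiv.swap 2 5 * Equiv.swap 5 8) := by
  apply Equiv.ext
  have h : ∀ p, psiF g1 p = ((Equiv.swap (0 : Fin 9) 3 * Equiv.swap 3 6 * (Equiv.swap 1 4 * Equiv.swap 4 7) *
    (Equiv.swap 2 5 * Equiv.swap 5 8) : Equiv.Perm (Fin 9))) p := by decide +kernel
  exact h
theorem Psi_g2 : PsiHom g2 = Equiv.swap (0 : Fin 9) 1 * Equiv.swap 3 4 := by
  apply Equiv.ext
  have h : ∀ p, psiF g2 p = ((Equiv.swap (0 : Fin 9) 1 * Equiv.swap 3 4 : Equiv.Perm (Fin 9))) p := by decide +kernel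
  exact h
theorem Psi_g3 : PsiHom g3 = Equiv.swap (0 : Fin 9) 3 * Equiv.swap 1 4 * Equiv.swap 2 5 * Equiv.swap 6 7 := by
  apply Equiv.ext
  have h : ∀ p, psiF g3 p = ((Equiv.swap (0 : Fin 9) 3 * Equiv.swap 1 4 * Equiv.swap 2 5 * Equiv.swap 6 7 : Equiv.Perm (Fin 9))) p := by decide +kernel
  exact h

/-- The depth of an element in the Cayley graph of the four generators. -/
def dep (w : M648) : Nat := Nat.land (Nat.shiftRight tDEP (Nat.mul 4 (Nat.add w.1.1 (Nat.mul 27 w.2.1)))) 15

theorem dep_zero : ∀ w : M648, dep w = 0 → w = 1 := by decide +kernel
theorem dep_succ : ∀ w : M648, dep w ≠ 0 → dep (w * g0⁻¹) + 1 = dep w ∨ dep (w * g1⁻¹) + 1 = dep w ∨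
    dep (w * g2⁻¹) + 1 = dep w ∨ dep (w * g3⁻¹) + 1 = dep w := by decide +kernel

/-- The group of the statement is the image of the model. -/
theorem closure_eq : Subgroup.closure ({Equiv.swap (0 : Fin 9) 1 * Equiv.swap 1 2,
    Equiv.swap (0 : Fin 9) 3 * Equiv.swap 3 6 * (Equiv.swap 1 4 * Equiv.swap 4 7) * (Equiv.swap 2 5 * Equiv.swap 5 8),
    Equiv.swap (0 : Fin 9) 1 * Equiv.swap 3 4,
    Equiv.swap (0 : Fin 9) 3 * Equiv.swap 1 4 * Equiv.swap 2 5 * Equiv.swap 6 7} :
      Set (Equiv.Perm (Fin 9))) = PsiHom.range := by
  apply le_antisymm
  · rw [Subgroup.closure_le]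
    rintro x (rfl | rfl | rfl | rfl)
    · exact ⟨g0, Psi_g0⟩
    · exact ⟨g1, Psi_g1⟩
    · exact ⟨g2, Psi_g2⟩
    · exact ⟨g3, Psi_g3⟩
  · rintro _ ⟨v, rfl⟩
    set C := Subgroup.closure ({Equiv.swap (0 : Fin 9) 1 * Equiv.swap 1 2,
      Equiv.swap (0 : Fin 9) 3 * Equiv.swap 3 6 * (Equiv.swap 1 4 * Equiv.swap 4 7) * (Equiv.swap 2 5 * Equiv.swap 5 8),
      Equiv.swap (0 : Fin 9) 1 * Equiv.swap 3 4,
      Equiv.swap (0 : Fin 9) 3 * Equiv.swap 1 4 * Equiv.swap 2 5 * Equiv.swap 6 7} :
        Set (Equiv.Perm (Fin 9))) with hC
    have h0 : PsiHom g0 ∈ C := by
      rw [Psi_g0]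
      exact Subgroup.subset_closure (by simp)
    have h1 : PsiHom g1 ∈ C := by
      rw [Psi_g1]
      exact Subgroup.subset_closure (by simp)
    have h2 : PsiHom g2 ∈ C := by
      rw [Psi_g2]
      exact Subgroup.subset_closure (by simp)
    have h3 : PsiHom g3 ∈ C := by
      rw [Psi_g3]
      exact Subgroup.subset_closure (by simp)
    have key : ∀ n : ℕ, ∀ w : M648, dep w = n → PsiHom w ∈ C := by
      intro n
      induction n with
      | zero =>
        intro w hw
        rw [dep_zero w hw, map_one]
        exact C.one_mem
      | succ n ih =>
        intro w hw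
        have aux : ∀ g : M648, PsiHom g ∈ C → dep (w * g⁻¹) + 1 = dep w → PsiHom w ∈ C := by
          intro g hg hd
          have e : w = (w * g⁻¹) * g := by group
          rw [e, map_mul]
          exact C.mul_mem (ih _ (by omega)) hg
        rcases dep_succ w (by omega) with h | h | h | h
        · exact aux g0 h0 h
        · exact aux g1 h1 h
        · exact aux g2 h2 h
        · exact aux g3 h3 h
    exact key _ v rfl

end Cfsg.Agent.Lib.M648Model
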