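import Mathlib
import Cfsg.Agent.Lib.CharBasic
import Cfsg.Agent.Lib.CharValues
import Cfsg.Agent.Lib.CharInd
import Cfsg.Agent.Lib.CharAvg
import Cfsg.Agent.Lib.ComplexAut

/-!
# Character fields at 2-elements, a Galois toolkit

Field-of-values lemmas: an automorphism of `ℂ` acts on character values at `g` through powers of `g`,
the fields `ℚ(ζ + v)` with `ζ v = ±1`, and the local control of fusion of a 2-element.
-/

set_option autoImplicit false
set_option linter.all false

namespace Cfsg.Agent.Lib.MaxClassField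

open Cfsg

section Galois

variable {G : Type*} [Group G] [Finite G]

theorem roots_of_pow {χ : G → ℂ} (hχ : IsCharacter G χ) (g : G) {N : ℕ} (hN : 0 < N)
    (hg : g ^ N = 1) :
    ∃ (m : ℕ) (μ : Fin m → ℂ), (∀ i, μ i ^ N = 1) ∧ ∀ k : ℕ, χ (g ^ k) = ∑ i, μ i ^ k := by
  classical
  obtain ⟨n, ρ, rfl⟩ := hχ
  have hf : (ρ g) ^ N = 1 := by
    rw [← map_pow, hg, map_one]
  obtain ⟨b, μ, h1, h2⟩ := Cfsg.Agent.Lib.CharValues.exists_eigenbasis (ρ g) hN hf
  refine ⟨_, μ, h2, fun k => ?_⟩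
  have hk : ∀ i, ρ (g ^ k) (b i) = μ i ^ k • b i := by
    intro i
    rw [map_pow]
    induction k with
    | zero => simp
    | succ k ih =>
      rw [pow_succ, Module.End.mul_apply, h1, map_smul, ih, smul_smul, pow_succ]
      ring_nf
  exact Cfsg.Agent.Lib.CharValues.trace_eq_sum_of_eigenbasis (ρ (g ^ k)) b (fun i => μ i ^ k) hk

/-- Galois action on character values. -/
theorem ringEquiv_char {χ : G → ℂ} (hχ : IsCharacter G χ) {g : G} {N : ℕ} (hN : 0 < N)
    (hg : g ^ N = 1) (σ : ℂ ≃+* ℂ) {k : ℕ} (hσ : ∀ z : ℂ, z ^ N = 1 → σ z = z ^ k) :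
    σ (χ g) = χ (g ^ k) := by
  obtain ⟨m, μ, h1, h2⟩ := roots_of_pow hχ g hN hg
  have h3 := h2 1
  rw [pow_one] at h3
  rw [h3, h2 k, map_sum]
  refine Finset.sum_congr rfl fun i _ => ?_
  rw [pow_one, hσ _ (h1 i)]

/-- A ring automorphism of `ℂ` fixing `S` fixes `ℚ(S)`. -/
theorem fix_adjoin (σ : ℂ ≃+* ℂ) {S : Set ℂ} (hS : ∀ z ∈ S, σ z = z) {x : ℂ}
    (hx : x ∈ IntermediateField.adjoin ℚ S) : σ x = x := by
  induction hx using IntermediateField.adjoin_induction with
  | mem x hx => exact hS x hx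
  | algebraMap q => simp
  | add x y _ _ hx hy => rw [map_add, hx, hy]
  | inv x _ hx => rw [map_inv₀, hx]
  | mul x y _ _ hx hy => rw [map_mul, hx, hy]

/-- Lucas recurrence: if `u + v` and `u v` lie in `F` then so does `u ^ i + v ^ i`. -/
theorem lucas_mem (F : IntermediateField ℚ ℂ) {u v : ℂ} (h1 : u + v ∈ F) (h2 : u * v ∈ F) (i : ℕ) :
    u ^ i + v ^ i ∈ F := by
  induction i using Nat.twoStepInduction with
  | zero =>
    have : u ^ 0 + v ^ 0 = ((2 : ℚ) : ℂ) := by norm_num
    rw [this]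
    exact_mod_cast F.algebraMap_mem (2 : ℚ)
  | one => simpa using h1
  | more i h0 hs =>
    have : u ^ (i + 2) + v ^ (i + 2) = (u + v) * (u ^ (i + 1) + v ^ (i + 1)) - (u * v) * (u ^ i + v ^ i) := by
      ring
    rw [this]
    exact F.sub_mem (F.mul_mem h1 hs) (F.mul_mem h2 h0)

/-- The element `χ g` lies in `ℚ(ζ + v)` when an automorphism fixing it sends `ζ` to `v`. -/
theorem char_mem_of_swap {χ : G → ℂ} (hχ : IsCharacter G χ) {g : G} {N : ℕ} (hN : 0 < N)
    (hg : g ^ N = 1) {ζ : ℂ} (hζ : IsPrimitiveRoot ζ N) {v : ℂ} (F : IntermediateField ℚ ℂ)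
    (h1 : ζ + v ∈ F) (h2 : ζ * v ∈ F) (σ : ℂ ≃+* ℂ) (hσ : σ ζ = v) (hfix : σ (χ g) = χ g) :
    χ g ∈ F := by
  haveI : NeZero N := ⟨hN.ne'⟩
  obtain ⟨m, μ, hμ1, hμ2⟩ := roots_of_pow hχ g hN hg
  have h3 := hμ2 1
  rw [pow_one] at h3
  simp only [pow_one] at h3
  have hexp : ∀ i, ∃ a : ℕ, μ i = ζ ^ a := fun i => by
    obtain ⟨a, -, ha⟩ := hζ.eq_pow_of_pow_eq_one (hμ1 i)
    exact ⟨a, ha.symm⟩
  choose a ha using hexp
  have hsum : χ g + σ (χ g) = ∑ i, (ζ ^ a i + v ^ a i) := by
    rw [h3, map_sum, ← Finset.sum_add_distrib]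
    refine Finset.sum_congr rfl fun i _ => ?_
    rw [ha i, map_pow, hσ]
  have hmem : χ g + σ (χ g) ∈ F := by
    rw [hsum]
    exact F.sum_mem fun i _ => lucas_mem F h1 h2 (a i)
  rw [hfix] at hmem
  have h4 : χ g = ((2 : ℚ) : ℂ)⁻¹ * (χ g + χ g) := by
    push_cast
    ring
  rw [h4]
  refine F.mul_mem (F.inv_mem ?_) hmem
  exact_mod_cast F.algebraMap_mem (2 : ℚ)

end Galois

section Fusion

variable {G : Type*} [Group G] [Finite G]

/-- A conjugation mapping a generator into its cyclic group normalizes it. -/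
theorem mem_normalizer_of_conj_mem {g y : G} (h : y * g * y⁻¹ ∈ Subgroup.zpowers g) :
    y ∈ Subgroup.normalizer ((Subgroup.zpowers g : Subgroup G) : Set G) := by
  classical
  have hle : (Subgroup.zpowers g).map (MulAut.conj y).toMonoidHom ≤ Subgroup.zpowers g := by
    rw [Subgroup.map_le_iff_le_comap, Subgroup.zpowers_le]
    exact h
  have hcard : Nat.card (Subgroup.zpowers g) ≤ Nat.card ((Subgroup.zpowers g).map (MulAut.conj y).toMonoidHom) := by
    rw [Subgroup.card_map_of_injective (MulAut.conj y).injective]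
  have heq := Subgroup.eq_of_le_of_card_ge hle hcard
  rw [Subgroup.mem_normalizer_iff]
  intro h'
  constructor
  · intro hh
    have : (MulAut.conj y).toMonoidHom h' ∈ (Subgroup.zpowers g).map (MulAut.conj y).toMonoidHom :=
      Subgroup.mem_map_of_mem _ hh
    rw [heq] at this
    simpa using this
  · intro hh
    have hh' : y * h' * y⁻¹ ∈ (Subgroup.zpowers g).map (MulAut.conj y).toMonoidHom := by
      rw [heq]; exact hh
    obtain ⟨z, hz, hzz⟩ := hh'
    have : z = h' := by
      have : y * z * y⁻¹ = y * h' * y⁻¹ := by simpa using hzz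
      simpa using this
    rwa [← this]

/-- Conjugates of a 2-element inside its cyclic group are realised in a Sylow 2-subgroup. -/
theorem exists_sylow_conj (P : Sylow 2 G) {c y : G} (hc : c ∈ (P : Subgroup G))
    (hP : (P : Subgroup G) ≤ Subgroup.normalizer ((Subgroup.zpowers c : Subgroup G) : Set G))
    (hy : y ∈ Subgroup.normalizer ((Subgroup.zpowers c : Subgroup G) : Set G)) :
    ∃ w ∈ (P : Subgroup G), w * c * w⁻¹ = y * c * y⁻¹ := by
  classical
  set H : Subgroup G := Subgroup.zpowers c with hH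
  set N : Subgroup G := Subgroup.normalizer ((H : Subgroup G) : Set G) with hN
  have hfp : Fact (Nat.Prime 2) := ⟨Nat.prime_two⟩
  let f : N →* MulAut H := H.normalizerMonoidHom
  let P' : Subgroup N := (P : Subgroup G).subgroupOf N
  let T : Subgroup N := (P'.map f).comap f
  have hP'T : P' ≤ T := Subgroup.le_comap_map f P'
  -- the index of T divides a power of two
  have hcardH : ∃ k, Nat.card H = 2 ^ k := by
    have h2 : IsPGroup 2 (P : Subgroup G) := P.isPGroup'
    have : IsPGroup 2 H := h2.to_le (by rw [hH, Subgroup.zpowers_le]; exact hc)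
    exact (IsPGroup.iff_card.mp this)
  obtain ⟨k, hk⟩ := hcardH
  have hpow : ∃ j, Nat.card (MulAut H) = 2 ^ j := by
    haveI : IsCyclic H := Subgroup.isCyclic_zpowers c
    rw [IsCyclic.card_mulAut, hk]
    rcases Nat.eq_zero_or_pos k with rfl | h0
    · exact ⟨0, by simp⟩
    · rw [Nat.totient_prime_pow Nat.prime_two h0]
      exact ⟨k - 1, by simp⟩
  obtain ⟨j, hj⟩ := hpow
  have h1 : T.index ∣ 2 ^ j := by
    have h3 : T.index = (P'.map f).relIndex f.range := Subgroup.index_comap _ _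
    rw [h3, ← hj]
    exact (Subgroup.relIndex_dvd_card _ _).trans (Subgroup.card_dvd_of_le le_top |>.trans (by simp)) 
  -- and an odd number
  have h2 : ¬ 2 ∣ T.index := by
    intro hd
    have h4 : T.index ∣ P'.index := Subgroup.index_dvd_of_le hP'T
    have h5 : P'.index = (P : Subgroup G).relIndex N := rfl
    have h6 : (P : Subgroup G).relIndex N * N.index = (P : Subgroup G).index :=
      Subgroup.relIndex_mul_index hP
    exact P.not_dvd_index (hd.trans (h4.trans (h5 ▸ Dvd.intro _ h6)))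
  have hT1 : T.index = 1 := by
    obtain ⟨i, hi, hi2⟩ := (Nat.dvd_prime_pow Nat.prime_two).mp h1
    rcases i with _ | i
    · simpa using hi2
    · exact absurd (hi2 ▸ Dvd.intro_left (2 ^ i) (pow_succ 2 i).symm) h2
  have hTtop : T = ⊤ := Subgroup.index_eq_one.mp hT1
  have hyT : (⟨y, hy⟩ : N) ∈ T := by rw [hTtop]; trivial
  obtain ⟨w, hw, hwf⟩ := hyT
  refine ⟨w, hw, ?_⟩
  have h7 := congrArg (fun φ : MulAut H => ((φ ⟨c, Subgroup.mem_zpowers c⟩ : H) : G)) hwf
  exact h7

end Fusion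

end Cfsg.Agent.Lib.MaxClassField
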