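import Mathlib
import Cfsg.Agent.Lib.MaxClassField
import Cfsg.Agent.Lib.MaxClassTwo2

/-!
# Detecting maximal class from a field of values
-/

set_option autoImplicit false
set_option linter.all false

namespace Cfsg.Agent.Lib.MaxClassField2

open Cfsg Cfsg.Agent.Lib.MaxClassField
open scoped commutatorElement

variable {G : Type*} [Group G] [Finite G]

theorem neg_one_of_halve {n : ℕ} (hn : 2 ≤ n) {ζ : ℂ} (hζ : IsPrimitiveRoot ζ (2 ^ n)) :
    ζ ^ (2 ^ (n - 1)) = -1 := by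
  have h : IsPrimitiveRoot (ζ ^ (2 ^ (n - 1))) 2 := by
    refine hζ.pow (by positivity) ?_
    rw [← pow_succ]
    congr 1
    omega
  exact h.eq_neg_one_of_two_right

theorem index_eq_four_of_field (P : Sylow 2 G) (n : ℕ) (hn : 3 ≤ n) (hP : Nat.card P = 2 ^ n)
    (ζ : ℂ) (hζ : IsPrimitiveRoot ζ (2 ^ (n - 1))) {g : G} (hg : g ∈ (P : Subgroup G))
    (heven : 2 ∣ (Subgroup.centralizer ({g} : Set G)).index) {ε : ℂ} (hε : ε = 1 ∨ ε = -1)
    (hF : IntermediateField.adjoin ℚ {z : ℂ | ∃ χ : Cfsg.IrrCharacter G, (χ : G → ℂ) g = z} =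
      IntermediateField.adjoin ℚ ({ζ + ε * ζ⁻¹} : Set ℂ)) :
    (commutator ↥P).index = 4 := by
  classical
  haveI hfp : Fact (Nat.Prime 2) := ⟨Nat.prime_two⟩
  replace hP : Nat.card ↥P = 2 ^ n := hP
  have hcomm : commutator ↥P ≠ ⊥ := by
    intro hb
    have htop := (commutator_eq_bot_iff_center_eq_top ↥P).1 hb
    have hle : (P : Subgroup G) ≤ Subgroup.centralizer ({g} : Set G) := by
      intro x hx
      rw [Subgroup.mem_centralizer_singleton_iff]
      have hc : (⟨g, hg⟩ : ↥P) ∈ Subgroup.center ↥P := by rw [htop]; trivial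
      have := Subgroup.mem_center_iff.1 hc ⟨x, hx⟩
      exact congrArg Subtype.val this
    exact P.not_dvd_index (heven.trans (Subgroup.index_dvd_of_le hle))
  have h4 : 4 ≤ (commutator ↥P).index := by
    have := Cfsg.Agent.Lib.MaxClassTwo2.sq_le_index (p := 2) (X := ↥P) P.isPGroup' hcomm
    simpa using this
  have hcard : Nat.card (commutator ↥P) * (commutator ↥P).index = 2 ^ n := by
    rw [Subgroup.card_mul_index, hP]
  -- it is enough to bound the commutator subgroup from below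
  suffices hle : 2 ^ (n - 2) ≤ Nat.card (commutator ↥P) by
    have h5 : (2 : ℕ) ^ n = 4 * 2 ^ (n - 2) := by
      obtain ⟨r, rfl⟩ : ∃ r, n = r + 2 := ⟨n - 2, by omega⟩
      simp [pow_add]; ring
    have hpos : 0 < (2 : ℕ) ^ (n - 2) := by positivity
    have h6 : (commutator ↥P).index * 2 ^ (n - 2) ≤ 4 * 2 ^ (n - 2) := by
      rw [← h5, ← hcard, mul_comm]
      exact Nat.mul_le_mul_right _ hle
    have := Nat.le_of_mul_le_mul_right h6 hpos
    omega
  rcases (by omega : n = 3 ∨ 4 ≤ n) with rfl | hn4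
  · have : Nat.card (commutator ↥P) ≠ 1 := by
      intro h1
      exact hcomm (Subgroup.eq_bot_of_card_eq _ h1)
    have h0 : Nat.card (commutator ↥P) ≠ 0 := Nat.card_pos.ne'
    show 2 ^ 1 ≤ _
    omega
  -- the main case
  set m : ℕ := 2 ^ (n - 1) with hm
  have hmpos : 0 < m := by positivity
  set F : IntermediateField ℚ ℂ := IntermediateField.adjoin ℚ ({ζ + ε * ζ⁻¹} : Set ℂ) with hFdef
  have hgen : ζ + ε * ζ⁻¹ ∈ F := IntermediateField.mem_adjoin_simple_self ℚ _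
  have hmhalf : ζ ^ (2 ^ (n - 2)) = -1 := by
    have := neg_one_of_halve (n := n - 1) (by omega) hζ
    rwa [show n - 1 - 1 = n - 2 by omega] at this
  have hm2 : m = 2 * 2 ^ (n - 2) := by
    rw [hm, ← pow_succ']
    congr 1
    omega
  have hζne : ζ ≠ 0 := hζ.ne_zero hmpos.ne'
  -- fixing the field from fixing the values
  have hfix : ∀ σ : ℂ ≃+* ℂ, (∀ χ : Cfsg.IrrCharacter G, σ ((χ : G → ℂ) g) = (χ : G → ℂ) g) →
      σ (ζ + ε * ζ⁻¹) = ζ + ε * ζ⁻¹ := by
    intro σ hσ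
    have hmem : ζ + ε * ζ⁻¹ ∈ IntermediateField.adjoin ℚ {z : ℂ | ∃ χ : Cfsg.IrrCharacter G, (χ : G → ℂ) g = z} := by
      rw [hF]; exact hgen
    refine fix_adjoin σ ?_ hmem
    rintro z ⟨χ, rfl⟩
    exact hσ χ
  have hεσ : ∀ σ : ℂ ≃+* ℂ, σ ε = ε := by
    intro σ
    rcases hε with rfl | rfl <;> simp
  have hεε : ε * ε = 1 := by
    rcases hε with rfl | rfl <;> simp
  -- Step A: `g ^ (m / 2) ≠ 1`
  have hA : g ^ (2 ^ (n - 2)) ≠ 1 := by
    intro h1
    have hk : (1 + 2 ^ (n - 2)).Coprime m := by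
      rw [hm]
      refine Nat.Coprime.pow_right _ ?_
      rw [Nat.coprime_two_right]  
      refine Odd.add_even odd_one ?_
      exact (even_two).pow_of_ne_zero (by omega)
    obtain ⟨σ, hσ⟩ := Cfsg.Agent.Lib.ComplexAut.exists_ringEquiv_pow hmpos hk
    have hgm : g ^ m = 1 := by rw [hm2, mul_comm, pow_mul, h1, one_pow]
    have h2 := hfix σ (fun χ => by
      rw [ringEquiv_char (Cfsg.Agent.Lib.CharBasic.IsIrrCharacter.isCharacter χ.2) hmpos hgm σ hσ,
        pow_add, h1, pow_one, mul_one])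
    have h3 : σ ζ = -ζ := by
      rw [hσ ζ hζ.pow_eq_one, pow_add, hmhalf, pow_one]; ring
    rw [map_add, map_mul, map_inv₀, h3, hεσ, inv_neg] at h2
    have h4 : ζ + ε * ζ⁻¹ = 0 := by
      linear_combination (-1 / 2 : ℂ) * h2
    have h5 : ζ ^ 2 = -ε := by
      field_simp at h4
      linear_combination h4
    have h6 : ζ ^ 4 = 1 := by
      have : ζ ^ 4 = (ζ ^ 2) ^ 2 := by ring
      rw [this, h5]
      linear_combination hεε
    have h7 := hζ.dvd_of_pow_eq_one 4 h6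
    have h8 : 8 ≤ m := by
      rw [hm]
      calc 8 = 2 ^ 3 := by norm_num
        _ ≤ 2 ^ (n - 1) := Nat.pow_le_pow_right (by norm_num) (by omega)
    have := Nat.le_of_dvd (by norm_num) h7
    omega
  -- Step B: the order of `g`
  let c : ↥P := ⟨g, hg⟩
  have hocoe : orderOf c = orderOf g := Subgroup.orderOf_mk g hg
  have hBdvd : orderOf c ∣ 2 ^ n := hP ▸ orderOf_dvd_natCard c
  obtain ⟨j, hj, hoj⟩ := (Nat.dvd_prime_pow Nat.prime_two).1 hBdvd
  have hjn1 : j = n - 1 := by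
    have h1 : n - 1 ≤ j := by
      by_contra hlt
      apply hA
      rw [← orderOf_dvd_iff_pow_eq_one, ← hocoe, hoj]
      exact pow_dvd_pow 2 (by omega)
    have h2 : j ≠ n := by
      rintro rfl
      have hcyc : IsCyclic ↥P := isCyclic_of_orderOf_eq_card c (by rw [hoj, hP])
      exact hcomm (Cfsg.Agent.Lib.MaxClassTwo2.commutator_eq_bot_of_isCyclic hcyc)
    omega
  subst hjn1
  -- Step C: normality
  have hcindex : (Subgroup.zpowers c).index = 2 := by
    have h1 := Subgroup.card_mul_index (Subgroup.zpowers c)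
    rw [Nat.card_zpowers, hoj, hP] at h1
    have h2 : (2 : ℕ) ^ n = 2 ^ (n - 1) * 2 := by
      rw [← pow_succ]; congr 1; omega
    rw [h2] at h1
    exact Nat.eq_of_mul_eq_mul_left (by positivity) h1
  haveI hcnormal : (Subgroup.zpowers c).Normal := Subgroup.normal_of_index_eq_two hcindex
  have hPnorm : (P : Subgroup G) ≤ Subgroup.normalizer ((Subgroup.zpowers g : Subgroup G) : Set G) := by
    intro w hw
    refine mem_normalizer_of_conj_mem ?_
    have h1 : (⟨w, hw⟩ : ↥P) * c * (⟨w, hw⟩ : ↥P)⁻¹ ∈ Subgroup.zpowers c :=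
      hcnormal.conj_mem c (Subgroup.mem_zpowers c) _
    obtain ⟨i, hi⟩ := h1
    refine ⟨i, ?_⟩
    have := congrArg Subtype.val hi
    simpa [c] using this
  -- Step D: a Galois element inverts up to sign
  obtain ⟨k₀, hk₀odd, hk₀ζ, hk₀⟩ : ∃ k₀ : ℕ, Odd k₀ ∧ ζ ^ k₀ = ε * ζ⁻¹ ∧
      (Nat.gcd m (k₀ - 1) = 2 ∧ 1 ≤ k₀) := by
    obtain ⟨r, rfl⟩ : ∃ r, n = r + 4 := ⟨n - 4, by omega⟩
    have hmr : m = 8 * 2 ^ r := by
      rw [hm, show r + 4 - 1 = r + 3 by omega, pow_add]; ring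
    have hr1 : 2 ^ (r + 4 - 2) = 4 * 2 ^ r := by
      rw [show r + 4 - 2 = r + 2 by omega, pow_add]; ring
    rw [hr1] at hmhalf
    have hrpos : 0 < 2 ^ r := by positivity
    have hcop : ∀ u : ℕ, Odd u → Nat.gcd (8 * 2 ^ r) (2 * u) = 2 := by
      intro u hu
      have : 8 * 2 ^ r = 2 * (4 * 2 ^ r) := by ring
      rw [this, Nat.gcd_mul_left]
      have hc : Nat.Coprime (4 * 2 ^ r) u := by
        have : 4 * 2 ^ r = 2 ^ (r + 2) := by rw [pow_add]; ring
        rw [this]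
        refine Nat.Coprime.pow_left _ ?_
        rwa [Nat.coprime_two_left]
      rw [hc.gcd_eq_one]
    have hζm : ζ ^ (8 * 2 ^ r) = 1 := by rw [← hmr]; exact hζ.pow_eq_one
    rcases hε with rfl | rfl
    · refine ⟨8 * 2 ^ r - 1, ?_, ?_, ?_, by omega⟩
      · obtain ⟨u, hu⟩ : ∃ u, 2 ^ r = u + 1 := ⟨2 ^ r - 1, by omega⟩
        exact ⟨4 * u + 3, by rw [hu]; omega⟩
      · have : ζ ^ (8 * 2 ^ r - 1) * ζ = 1 := by
          rw [← pow_succ, show 8 * 2 ^ r - 1 + 1 = 8 * 2 ^ r by omega, hζm]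
        field_simp
        exact this
      · rw [hmr, show 8 * 2 ^ r - 1 - 1 = 2 * (4 * 2 ^ r - 1) by omega]
        refine hcop _ ?_
        obtain ⟨u, hu⟩ : ∃ u, 2 ^ r = u + 1 := ⟨2 ^ r - 1, by omega⟩
        exact ⟨2 * u + 1, by rw [hu]; omega⟩
    · refine ⟨4 * 2 ^ r - 1, ?_, ?_, ?_, by omega⟩
      · obtain ⟨u, hu⟩ : ∃ u, 2 ^ r = u + 1 := ⟨2 ^ r - 1, by omega⟩
        exact ⟨2 * u + 1, by rw [hu]; omega⟩
      · have : ζ ^ (4 * 2 ^ r - 1) * ζ = -1 := by
          rw [← pow_succ, show 4 * 2 ^ r - 1 + 1 = 4 * 2 ^ r by omega, hmhalf]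
        field_simp
        linear_combination this
      · rw [hmr, show 4 * 2 ^ r - 1 - 1 = 2 * (2 * 2 ^ r - 1) by omega]
        refine hcop _ ?_
        obtain ⟨u, hu⟩ : ∃ u, 2 ^ r = u + 1 := ⟨2 ^ r - 1, by omega⟩
        exact ⟨u, by rw [hu]; omega⟩
  have hk₀cop : k₀.Coprime m := by
    rw [hm]
    refine Nat.Coprime.pow_right _ ?_
    rwa [Nat.coprime_two_right]
  obtain ⟨σ, hσ⟩ := Cfsg.Agent.Lib.ComplexAut.exists_ringEquiv_pow hmpos hk₀cop
  have hσζ : σ ζ = ε * ζ⁻¹ := by rw [hσ ζ hζ.pow_eq_one, hk₀ζ]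
  have hεne : ε ≠ 0 := by
    rcases hε with rfl | rfl <;> norm_num
  have hσfix : σ (ζ + ε * ζ⁻¹) = ζ + ε * ζ⁻¹ := by
    rw [map_add, map_mul, map_inv₀, hσζ, hεσ, mul_inv, inv_inv]
    have : ε * (ε⁻¹ * ζ) = ζ := by field_simp
    rw [this, add_comm]
  have hgm : g ^ m = 1 := by
    rw [← orderOf_dvd_iff_pow_eq_one, ← hocoe, hoj]
  have hvals : ∀ χ : Cfsg.IrrCharacter G, (χ : G → ℂ) g = (χ : G → ℂ) (g ^ k₀) := by
    intro χ
    have h1 : σ ((χ : G → ℂ) g) = (χ : G → ℂ) g := by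
      refine fix_adjoin σ ?_ (?_ : (χ : G → ℂ) g ∈ IntermediateField.adjoin ℚ ({ζ + ε * ζ⁻¹} : Set ℂ))
      · rintro z rfl
        exact hσfix
      · show _ ∈ F
        rw [← hF]
        exact IntermediateField.subset_adjoin _ _ ⟨χ, rfl⟩
    rw [← h1, ringEquiv_char (Cfsg.Agent.Lib.CharBasic.IsIrrCharacter.isCharacter χ.2) hmpos hgm σ hσ]
  obtain ⟨y, hy⟩ := isConj_iff.1 (Cfsg.Agent.Lib.CharAvg.isConj_of_forall_irr hvals)
  have hymem : y ∈ Subgroup.normalizer ((Subgroup.zpowers g : Subgroup G) : Set G) := by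
    refine mem_normalizer_of_conj_mem ?_
    rw [hy]
    exact Subgroup.npow_mem_zpowers g k₀
  obtain ⟨w, hw, hwy⟩ := exists_sylow_conj P hg hPnorm hymem
  rw [hy] at hwy
  -- Step E: a commutator of large order
  have hcommmem : c ^ (k₀ - 1) ∈ commutator ↥P := by
    have h1 : ⁅(⟨w, hw⟩ : ↥P), c⁆ = c ^ (k₀ - 1) := by
      apply Subtype.ext
      show w * g * w⁻¹ * g⁻¹ = ((c ^ (k₀ - 1) : ↥P) : G)
      rw [hwy]
      have : ((c ^ (k₀ - 1) : ↥P) : G) = g ^ (k₀ - 1) := rfl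
      rw [this]
      have h2 : g ^ k₀ = g ^ (k₀ - 1) * g := by
        rw [← pow_succ]; congr 1; omega
      rw [h2]; group
    rw [← h1]
    exact Subgroup.commutator_mem_commutator (Subgroup.mem_top _) (Subgroup.mem_top _)
  have hord : orderOf (c ^ (k₀ - 1)) = 2 ^ (n - 2) := by
    rw [orderOf_pow' _ ?_]
    · rw [hoj, ← hm, hk₀.1]
      rw [hm2]
      simp
    · intro h0
      have hk1 : k₀ = 1 := by omega
      subst hk1
      have h1 : ζ * ζ = ε := by
        rw [pow_one] at hk₀ζ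
        field_simp at hk₀ζ
        linear_combination hk₀ζ
      rw [show (1 : ℕ) - 1 = 0 by omega, Nat.gcd_zero_right] at hk₀
      have h8 : 8 ≤ m := by
        rw [hm]
        calc 8 = 2 ^ 3 := by norm_num
          _ ≤ 2 ^ (n - 1) := Nat.pow_le_pow_right (by norm_num) (by omega)
      omega
  calc 2 ^ (n - 2) = orderOf (c ^ (k₀ - 1)) := hord.symm
    _ ≤ Nat.card (commutator ↥P) := Subgroup.orderOf_le_card _ (Set.toFinite _) hcommmem

/-- The induced linear character gives `ζ + ζ ^ t`. -/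
theorem sum_mem_of_fusion {a b : G} {t : ℕ} (hba : b * a * b⁻¹ = a ^ t) (hne : a ^ t ≠ a)
    (hfus : ∀ x : G, x⁻¹ * a * x ∈ Subgroup.zpowers a → x⁻¹ * a * x = a ∨ x⁻¹ * a * x = a ^ t)
    {ζ : ℂ} (hζ : IsPrimitiveRoot ζ (orderOf a)) :
    ζ + ζ ^ t ∈ IntermediateField.adjoin ℚ {z : ℂ | ∃ χ : Cfsg.IrrCharacter G, (χ : G → ℂ) a = z} := by
  classical
  letI := Fintype.ofFinite G
  set H : Subgroup G := Subgroup.zpowers a with hH
  set F' : IntermediateField ℚ ℂ :=
    IntermediateField.adjoin ℚ {z : ℂ | ∃ χ : Cfsg.IrrCharacter G, (χ : G → ℂ) a = z} with hF'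
  have ho : 0 < orderOf a := orderOf_pos a
  let u : ℂˣ := Units.mk0 ζ (hζ.ne_zero ho.ne')
  let a' : H := ⟨a, Subgroup.mem_zpowers a⟩
  have hgen : ∀ x : H, x ∈ Subgroup.zpowers a' := by
    rintro ⟨x, i, rfl⟩
    exact ⟨i, Subtype.ext (by simp [a'])⟩
  have hoa' : orderOf a' = orderOf a := Subgroup.orderOf_mk a _
  have hu : orderOf u ∣ orderOf a' := by
    rw [hoa', orderOf_dvd_iff_pow_eq_one]
    apply Units.ext
    simp [u, hζ.pow_eq_one]
  let l : H →* ℂˣ := monoidHomOfForallMemZpowers hgen hu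
  have hl : l a' = u := monoidHomOfForallMemZpowers_apply_gen hgen hu
  let θ : H → ℂ := fun h => ((l h : ℂˣ) : ℂ)
  have hθ : IsCharacter H θ :=
    Cfsg.Agent.Lib.CharBasic.IsIrrCharacter.isCharacter (Cfsg.Agent.Lib.CharBasic.isIrrCharacter_of_hom l)
  have hψ := Cfsg.Agent.Lib.CharInd.indFun_isCharacter H hθ
  have hψmem : indFun H θ a ∈ F' := by
    obtain ⟨mm, hmm⟩ := Cfsg.Agent.Lib.CharBasic.exists_nat_decomp hψ
    rw [hmm, Finset.sum_apply]
    refine F'.sum_mem fun i _ => ?_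
    rw [Pi.smul_apply]
    exact F'.nsmul_mem (IntermediateField.subset_adjoin _ _ ⟨i, rfl⟩) _
  have hθa : ∀ k : ℕ, ∀ h : a ^ k ∈ H, θ ⟨a ^ k, h⟩ = ζ ^ k := by
    intro k h
    have : (⟨a ^ k, h⟩ : H) = a' ^ k := Subtype.ext (by simp [a'])
    simp only [θ]
    rw [this, map_pow, hl]
    simp [u]
  have hpt : ∀ x : G, extendByZero H θ (x⁻¹ * a * x) =
      (if x⁻¹ * a * x = a then (1 : ℂ) else 0) * ζ + (if x⁻¹ * a * x = a ^ t then (1 : ℂ) else 0) * ζ ^ t := by
    intro x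
    by_cases h1 : x⁻¹ * a * x = a
    · have h2 : ¬ (x⁻¹ * a * x = a ^ t) := fun h => hne (h ▸ h1)
      rw [if_pos h1, if_neg h2, h1, Cfsg.Agent.Lib.CharInd.extendByZero_of_mem H θ (Subgroup.mem_zpowers a)]
      have := hθa 1 (by rw [pow_one]; exact Subgroup.mem_zpowers a)
      simp only [pow_one] at this
      rw [this]
      ring
    · by_cases h2 : x⁻¹ * a * x = a ^ t
      · have hmem : a ^ t ∈ H := Subgroup.npow_mem_zpowers a t
        rw [if_neg h1, if_pos h2, h2, Cfsg.Agent.Lib.CharInd.extendByZero_of_mem H θ hmem, hθa t hmem]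
        ring
      · have h3 : x⁻¹ * a * x ∉ H := fun h => (hfus x h).elim h1 h2
        rw [if_neg h1, if_neg h2, Cfsg.Agent.Lib.CharInd.extendByZero_of_not_mem H θ h3]
        ring
  let N : ℂ := ∑ x : G, (if x⁻¹ * a * x = a then (1 : ℂ) else 0)
  have hN' : N = ((Finset.univ.filter fun x : G => x⁻¹ * a * x = a).card : ℂ) := by
    simp only [N]
    rw [Finset.sum_boole]
  have hNpos : 0 < (Finset.univ.filter fun x : G => x⁻¹ * a * x = a).card :=
    Finset.card_pos.2 ⟨1, by simp⟩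
  have hN2 : ∑ x : G, (if x⁻¹ * a * x = a ^ t then (1 : ℂ) else 0) = N := by
    refine Fintype.sum_equiv (Equiv.mulRight b) _ _ fun x => ?_
    have : (x⁻¹ * a * x = a ^ t) ↔ ((x * b)⁻¹ * a * (x * b) = a) := by
      rw [← hba]
      constructor
      · intro h
        have : (x * b)⁻¹ * a * (x * b) = b⁻¹ * (x⁻¹ * a * x) * b := by group
        rw [this, h]; group
      · intro h
        have h3 : x⁻¹ * a * x = b * ((x * b)⁻¹ * a * (x * b)) * b⁻¹ := by group
        rw [h3, h]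
    simp only [Equiv.coe_mulRight]
    exact if_congr this rfl rfl
  have hψval : indFun H θ a = (Nat.card H : ℂ)⁻¹ * (N * (ζ + ζ ^ t)) := by
    rw [Cfsg.Agent.Lib.CharInd.indFun_apply]
    congr 1
    rw [Finset.sum_congr rfl fun x _ => hpt x, Finset.sum_add_distrib, ← Finset.sum_mul, ← Finset.sum_mul, hN2]
    ring
  have hcH : (Nat.card H : ℂ) ≠ 0 := by exact_mod_cast Nat.card_pos.ne'
  have hNne : N ≠ 0 := by rw [hN']; exact_mod_cast hNpos.ne'
  have hfinal : ζ + ζ ^ t = (Nat.card H : ℂ) * N⁻¹ * indFun H θ a := by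
    rw [hψval]
    field_simp
  rw [hfinal]
  have hnat : ∀ n : ℕ, (n : ℂ) ∈ F' := fun n => by
    exact_mod_cast F'.algebraMap_mem (n : ℚ)
  refine F'.mul_mem (F'.mul_mem (hnat _) (F'.inv_mem ?_)) hψmem
  rw [hN']
  exact hnat _

/-- If a Sylow 2-subgroup centralizes a conjugate of `a`, this conjugate lies in its center. -/
theorem exists_conj_mem_center_of_odd_index (P : Sylow 2 G) {a : G}
    (hodd : ¬ 2 ∣ (Subgroup.centralizer ({a} : Set G)).index)
    (ha : IsPGroup 2 (Subgroup.zpowers a)) :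
    ∃ x : G, ∃ h : x * a * x⁻¹ ∈ (P : Subgroup G), (⟨x * a * x⁻¹, h⟩ : ↥P) ∈ Subgroup.center ↥P := by
  classical
  haveI hfp : Fact (Nat.Prime 2) := ⟨Nat.prime_two⟩
  set K := Subgroup.centralizer ({a} : Set G) with hK
  have hcardK : ¬ 2 ∣ Nat.card (G ⧸ K) := hodd
  obtain ⟨q, hq⟩ := (IsPGroup.nonempty_fixed_point_of_prime_not_dvd_card (G := ↥P) (p := 2) P.isPGroup' (G ⧸ K) hcardK)
  obtain ⟨x, rfl⟩ := QuotientGroup.mk_surjective q
  have hcent : ∀ w : ↥P, (w : G) * (x * a * x⁻¹) = (x * a * x⁻¹) * (w : G) := by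
    intro w
    have h1 : w • (x : G ⧸ K) = (x : G ⧸ K) := hq w
    have h2 : (((w : G) * x : G) : G ⧸ K) = (x : G ⧸ K) := h1
    rw [eq_comm, QuotientGroup.eq] at h2
    have h3 : x⁻¹ * ((w : G) * x) ∈ Subgroup.centralizer ({a} : Set G) := h2
    rw [Subgroup.mem_centralizer_singleton_iff] at h3
    have h4 : (w : G) * (x * a * x⁻¹) = x * ((x⁻¹ * ((w : G) * x)) * a) * x⁻¹ := by group
    have h5 : (x * a * x⁻¹) * (w : G) = x * (a * (x⁻¹ * ((w : G) * x))) * x⁻¹ := by group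
    rw [h4, h5, h3]
  have hmem : x * a * x⁻¹ ∈ (P : Subgroup G) := by
    have hnorm : (P : Subgroup G) ≤ Subgroup.normalizer ((Subgroup.zpowers (x * a * x⁻¹) : Subgroup G) : Set G) := by
      intro w hw
      refine mem_normalizer_of_conj_mem ?_
      rw [(hcent ⟨w, hw⟩ : w * (x * a * x⁻¹) = (x * a * x⁻¹) * w)]
      simpa using Subgroup.mem_zpowers (x * a * x⁻¹)
    have hp : IsPGroup 2 (Subgroup.zpowers (x * a * x⁻¹)) := by
      rw [IsPGroup.iff_card, Nat.card_zpowers]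
      have h8 : orderOf (x * a * x⁻¹) = orderOf a := by
        have := orderOf_injective (MulAut.conj x).toMonoidHom (MulAut.conj x).injective a
        simpa using this
      rw [h8, ← Nat.card_zpowers]
      exact IsPGroup.iff_card.1 ha
    have h6 := IsPGroup.to_sup_of_normal_right' P.isPGroup' hp hnorm
    have h7 := P.is_maximal' h6 le_sup_left
    rw [← SetLike.mem_coe]
    show x * a * x⁻¹ ∈ P.toSubgroup
    rw [← h7]
    exact (le_sup_right : Subgroup.zpowers (x * a * x⁻¹) ≤ _) (Subgroup.mem_zpowers _)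
  refine ⟨x, hmem, Subgroup.mem_center_iff.2 fun w => Subtype.ext (hcent w)⟩

theorem field_of_index_eq_four (P : Sylow 2 G) (n : ℕ) (hn : 3 ≤ n) (hP : Nat.card P = 2 ^ n)
    (ζ : ℂ) (hζ : IsPrimitiveRoot ζ (2 ^ (n - 1))) (h4 : (commutator ↥P).index = 4) :
    ∃ g : G, g ∈ (P : Subgroup G) ∧ 2 ∣ (Subgroup.centralizer ({g} : Set G)).index ∧
      ∃ ε : ℂ, (ε = 1 ∨ ε = -1) ∧
        IntermediateField.adjoin ℚ {z : ℂ | ∃ χ : Cfsg.IrrCharacter G, (χ : G → ℂ) g = z} =
          IntermediateField.adjoin ℚ ({ζ + ε * ζ⁻¹} : Set ℂ) := by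
  classical
  haveI hfp : Fact (Nat.Prime 2) := ⟨Nat.prime_two⟩
  replace hP : Nat.card ↥P = 2 ^ n := hP
  have h4' : 4 * Nat.card (commutator ↥P) = Nat.card ↥P := by
    rw [← Subgroup.card_mul_index (commutator ↥P), h4, mul_comm]
  obtain ⟨c, b, hcidx, hbnot, hWcard, hcenter, hord⟩ :=
    Cfsg.Agent.Lib.MaxClassTwo2.structure_of_four_mul hn hP h4'
  set m : ℕ := 2 ^ (n - 1) with hm
  have hmpos : 0 < m := by positivity
  obtain ⟨M, hM⟩ : ∃ M, M = 2 ^ (n - 3) := ⟨_, rfl⟩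
  have hMpos : 0 < M := by rw [hM]; positivity
  have hm4 : m = 4 * M := by
    rw [hm, hM, show n - 1 = 2 + (n - 3) by omega, pow_add]; norm_num
  have hM2 : 2 ^ (n - 2) = 2 * M := by
    rw [hM, show n - 2 = 1 + (n - 3) by omega, pow_add]; norm_num
  haveI hcnormal := Subgroup.normal_of_index_eq_two hcidx
  obtain ⟨t, ht⟩ : ∃ t : ℕ, b * c * b⁻¹ = c ^ t := by
    have h1 : b * c * b⁻¹ ∈ Subgroup.zpowers c := hcnormal.conj_mem c (Subgroup.mem_zpowers c) b
    rw [← mem_powers_iff_mem_zpowers] at h1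
    obtain ⟨t, ht⟩ := h1
    exact ⟨t, ht.symm⟩
  have hconj : ∀ k : ℕ, b * c ^ k * b⁻¹ = c ^ (t * k) := by
    intro k
    rw [pow_mul, ← ht, conj_pow]
  have hcm : c ^ m = 1 := by rw [← hord]; exact pow_orderOf_eq_one c
  have hbb : b * b ∈ Subgroup.zpowers c := Subgroup.mul_self_mem_of_index_two hcidx b
  have htt : c ^ (t * t) = c := by
    obtain ⟨i, hi⟩ := hbb
    have h1 : (b * b) * c = c * (b * b) := by
      rw [← hi]
      exact (Commute.refl c).zpow_left i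
    have h2 : c ^ (t * t) = b * (b * c * b⁻¹) * b⁻¹ := by rw [ht, hconj]
    rw [h2]
    calc b * (b * c * b⁻¹) * b⁻¹ = (b * b) * c * (b * b)⁻¹ := by group
      _ = c := by rw [h1]; group
  have hmod : t * t ≡ 1 [MOD m] := by
    have := (pow_eq_pow_iff_modEq (x := c) (n := t * t) (m := 1)).1 (by rw [htt, pow_one])
    rwa [hord] at this
  have hodd : t % 2 = 1 := by
    have h1 : t * t % 2 = 1 % 2 := by
      have := hmod.of_dvd (show 2 ∣ m from ⟨2 * M, by rw [hm4]; ring⟩)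
      exact this
    rcases Nat.mod_two_eq_zero_or_one t with h | h
    · rw [Nat.mul_mod, h] at h1
      simp at h1
    · exact h
  -- `t ≡ 3 mod 4`
  have h34 : t % 4 = 3 := by
    by_contra hne
    obtain ⟨s, hs⟩ : ∃ s, t = 4 * s + 1 := ⟨t / 4, by omega⟩
    have hyord : orderOf (c ^ M) = 4 := by
      rw [orderOf_pow_of_dvd hMpos.ne' (by rw [hord, hm4]; exact Dvd.intro_left 4 rfl), hord, hm4]
      exact Nat.mul_div_cancel _ hMpos
    have hyb : b * c ^ M * b⁻¹ = c ^ M := by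
      rw [hconj, hs]
      have : (4 * s + 1) * M = m * s + M := by rw [hm4]; ring
      rw [this, pow_add, pow_mul, hcm, one_pow, one_mul]
    have hyW : c ^ M ∈ Subgroup.zpowers c ⊓ Subgroup.centralizer ({b} : Set ↥P) := by
      refine ⟨Subgroup.npow_mem_zpowers c M, ?_⟩
      show c ^ M ∈ Subgroup.centralizer ({b} : Set ↥P)
      rw [Subgroup.mem_centralizer_singleton_iff]
      calc c ^ M * b = (b * c ^ M * b⁻¹) * b := by rw [hyb]
        _ = b * c ^ M := by group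
    have h1 := orderOf_dvd_natCard (⟨c ^ M, hyW⟩ : ↥(Subgroup.zpowers c ⊓ Subgroup.centralizer ({b} : Set ↥P)))
    rw [hWcard, Subgroup.orderOf_mk, hyord] at h1
    omega
  obtain ⟨s, hs⟩ : ∃ s, t = 4 * s + 3 := ⟨t / 4, by omega⟩
  -- `2 ^ (n - 2) ∣ t + 1`
  have hdvd : 2 * M ∣ t + 1 := by
    have h1 : m ∣ t * t - 1 := by
      have := (Nat.modEq_iff_dvd' (by rw [hs]; nlinarith)).1 hmod.symm
      exact this
    have h2 : t * t - 1 = 2 * ((2 * s + 1) * (t + 1)) := by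
      rw [hs]
      have : (4 * s + 3) * (4 * s + 3) = 2 * ((2 * s + 1) * (4 * s + 3 + 1)) + 1 := by ring
      omega
    rw [h2, hm4, show 4 * M = 2 * (2 * M) by ring] at h1
    have h3 := Nat.dvd_of_mul_dvd_mul_left (by norm_num) h1
    have hc : Nat.Coprime (2 * M) (2 * s + 1) := by
      rw [hM, ← pow_succ']
      refine Nat.Coprime.pow_left _ ?_
      rw [Nat.coprime_two_left]
      exact ⟨s, rfl⟩
    exact hc.dvd_of_dvd_mul_left h3
  obtain ⟨e, he⟩ := hdvd
  set ε : ℂ := (-1) ^ e with hεdef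
  have hε : ε = 1 ∨ ε = -1 := by
    rcases Nat.even_or_odd e with h | h
    · left; rw [hεdef]; exact h.neg_one_pow
    · right; rw [hεdef]; exact h.neg_one_pow
  have hζne : ζ ≠ 0 := hζ.ne_zero hmpos.ne'
  have hhalf : ζ ^ (2 * M) = -1 := by
    have := neg_one_of_halve (n := n - 1) (by omega) hζ
    rwa [show n - 1 - 1 = n - 2 by omega, hM2] at this
  have hζt : ζ ^ t = ε * ζ⁻¹ := by
    have h1 : ζ ^ t * ζ = ε := by
      rw [← pow_succ, he, pow_mul, hhalf]
    field_simp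
    exact h1
  have htc : t.Coprime m := by
    rw [hm]
    refine Nat.Coprime.pow_right _ ?_
    rw [Nat.coprime_two_right]
    exact Nat.odd_iff.2 hodd
  let a : G := (c : G)
  let b' : G := (b : G)
  have hcP : a ∈ (P : Subgroup G) := c.2
  have hba : b' * a * b'⁻¹ = a ^ t := congrArg Subtype.val ht
  have hoa : orderOf a = m := by
    rw [← hord]
    exact Subgroup.orderOf_coe c
  have ham : a ^ m = 1 := by rw [← hoa]; exact pow_orderOf_eq_one a
  have hne : a ^ t ≠ a := by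
    intro h
    have h1 := (pow_eq_pow_iff_modEq (x := a) (n := t) (m := 1)).1 (by rw [h, pow_one])
    rw [hoa] at h1
    have h2 := h1.of_dvd (show 4 ∣ m from ⟨M, hm4⟩)
    have h3 : t % 4 = 1 % 4 := h2
    omega
  have hPnorm : (P : Subgroup G) ≤ Subgroup.normalizer ((Subgroup.zpowers a : Subgroup G) : Set G) := by
    intro w hw
    refine mem_normalizer_of_conj_mem ?_
    have h1 : (⟨w, hw⟩ : ↥P) * c * (⟨w, hw⟩ : ↥P)⁻¹ ∈ Subgroup.zpowers c :=
      hcnormal.conj_mem c (Subgroup.mem_zpowers c) _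
    obtain ⟨i, hi⟩ := h1
    refine ⟨i, ?_⟩
    have := congrArg Subtype.val hi
    simpa [a] using this
  have hfus : ∀ x : G, x⁻¹ * a * x ∈ Subgroup.zpowers a → x⁻¹ * a * x = a ∨ x⁻¹ * a * x = a ^ t := by
    intro x hx
    have hy : x⁻¹ ∈ Subgroup.normalizer ((Subgroup.zpowers a : Subgroup G) : Set G) := by
      refine mem_normalizer_of_conj_mem ?_
      rwa [inv_inv]
    obtain ⟨w, hw, hwy⟩ := exists_sylow_conj P hcP hPnorm hy
    rw [inv_inv] at hwy
    rw [← hwy]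
    by_cases hwc : (⟨w, hw⟩ : ↥P) ∈ Subgroup.zpowers c
    · left
      obtain ⟨i, hi⟩ := hwc
      have h1 : (⟨w, hw⟩ : ↥P) * c * (⟨w, hw⟩ : ↥P)⁻¹ = c := by
        rw [← hi, ((Commute.refl c).zpow_left i).eq]
        group
      exact congrArg Subtype.val h1
    · right
      have hbi : b⁻¹ ∉ Subgroup.zpowers c := fun h => hbnot (by simpa using Subgroup.inv_mem _ h)
      have h1 : (⟨w, hw⟩ : ↥P) * b⁻¹ ∈ Subgroup.zpowers c := by
        rw [Subgroup.mul_mem_iff_of_index_two hcidx]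
        exact iff_of_false hwc hbi
      obtain ⟨i, hi⟩ := h1
      have hi' : c ^ i = (⟨w, hw⟩ : ↥P) * b⁻¹ := hi
      have h2 : (⟨w, hw⟩ : ↥P) = c ^ i * b := by rw [hi']; group
      have h3 : (⟨w, hw⟩ : ↥P) * c * (⟨w, hw⟩ : ↥P)⁻¹ = c ^ t := by
        rw [h2, ← ht]
        have : c ^ i * b * c * (c ^ i * b)⁻¹ = c ^ i * (b * c * b⁻¹) * (c ^ i)⁻¹ := by group
        rw [this, ht, ((Commute.refl c).zpow_left i).pow_right t |>.eq]
        group
      exact congrArg Subtype.val h3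
  have hζ' : IsPrimitiveRoot ζ (orderOf a) := by rw [hoa]; exact hζ
  refine ⟨a, hcP, ?_, ε, hε, ?_⟩
  · -- the class of `a` has even size
    by_contra hoddidx
    have ha : IsPGroup 2 (Subgroup.zpowers a) :=
      P.isPGroup'.to_le (by rw [Subgroup.zpowers_le]; exact hcP)
    obtain ⟨x, hx, hxc⟩ := exists_conj_mem_center_of_odd_index P hoddidx ha
    rw [hcenter] at hxc
    have h1 := orderOf_dvd_natCard (⟨_, hxc⟩ : ↥(Subgroup.zpowers c ⊓ Subgroup.centralizer ({b} : Set ↥P)))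
    rw [hWcard, Subgroup.orderOf_mk, Subgroup.orderOf_mk] at h1
    have h8 : orderOf (x * a * x⁻¹) = orderOf a := by
      have := orderOf_injective (MulAut.conj x).toMonoidHom (MulAut.conj x).injective a
      simpa using this
    rw [h8, hoa, hm4] at h1
    have := Nat.le_of_dvd (by norm_num) h1
    omega
  · set F : IntermediateField ℚ ℂ := IntermediateField.adjoin ℚ ({ζ + ε * ζ⁻¹} : Set ℂ) with hF
    have hgen : ζ + ζ ^ t ∈ F := by
      rw [hζt]
      exact IntermediateField.mem_adjoin_simple_self ℚ _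
    have hprod : ζ * ζ ^ t ∈ F := by
      have h1 : ζ * ζ ^ t = ε := by
        rw [hζt]; field_simp
      rw [h1]
      rcases hε with h | h <;> rw [h]
      · exact F.one_mem
      · exact F.neg_mem F.one_mem
    obtain ⟨σ, hσ⟩ := Cfsg.Agent.Lib.ComplexAut.exists_ringEquiv_pow hmpos htc
    apply le_antisymm
    · rw [IntermediateField.adjoin_le_iff]
      rintro z ⟨χ, rfl⟩
      have hχ : IsCharacter G (χ : G → ℂ) := Cfsg.Agent.Lib.CharBasic.IsIrrCharacter.isCharacter χ.2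
      refine char_mem_of_swap hχ hmpos ham hζ F hgen hprod σ (hσ ζ hζ.pow_eq_one) ?_
      rw [ringEquiv_char hχ hmpos ham σ hσ, ← hba]
      exact Cfsg.Agent.Lib.CharBasic.char_apply_conj hχ a b'
    · rw [hF, IntermediateField.adjoin_le_iff, Set.singleton_subset_iff]
      have := sum_mem_of_fusion hba hne hfus hζ'
      rwa [hζt] at this

end Cfsg.Agent.Lib.MaxClassField2
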