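import Mathlib
import Cfsg.Agent.Lib.CentricInd
import Cfsg.Agent.Lib.BlkCentralD

/-!
# Maximal Brauer pairs and characters of defect zero

`(Q, e)` is a maximal Brauer pair of some block iff `e` contains a character with `Z(Q)` in its
kernel, of defect zero on `C_G(Q) / Z(Q)`, and the `p`-elements of the stabilizer of `e` in `N_G(Q)`
lie in `Q C_G(Q)`.
-/

set_option autoImplicit false
set_option linter.unusedSectionVars false
set_option linter.unusedVariables false
set_option linter.style.haveILetI false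

namespace Cfsg.Agent.Lib.MaxPairChar

open Cfsg Cfsg.Agent.Lib.CharBasic Cfsg.Agent.Lib.CharInd Cfsg.Agent.Lib.CharIntegrality
open Cfsg.Agent.Lib.BlockLocal Cfsg.Agent.Lib.BlockIdem Cfsg.Agent.Lib.BlockNormal
open Cfsg.Agent.Lib.BrauerMap Cfsg.Agent.Lib.BrauerPair Cfsg.Agent.Lib.BrauerSub
open Cfsg.Agent.Lib.BrauerConj Cfsg.Agent.Lib.BrauerThird Cfsg.Agent.Lib.BrauerMax
open Cfsg.Agent.Lib.BrauerStab Cfsg.Agent.Lib.BlockDefect Cfsg.Agent.Lib.BrauerCen
open Cfsg.Agent.Lib.BrauerFull Cfsg.Agent.Lib.BrauerLift Cfsg.Agent.Lib.BlockQ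
open Cfsg.Agent.Lib.BrauerSat Cfsg.Agent.Lib.GreenDefect Cfsg.Agent.Lib.CentricInd
open Cfsg.Agent.Lib.BlockCentral Cfsg.Agent.Lib.BlockOrtho Cfsg.Agent.Lib.CharKernel
open scoped ComplexConjugate

universe u

section Central

variable {K : Type u} [Group K] [Fintype K] {p : ℕ} [hp : Fact p.Prime] {M : Ideal AlgInt}

/-- A block with central defect group contains a character with the defect group in its kernel, of
defect zero modulo the defect group. -/
theorem exists_ker_char_of_central (hM : IsPModular p M) {B : Set (IrrCharacter K)} (hB : IsPBlock M B)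
    {P : Subgroup K} (hD : IsDefectGroup p M B P) (hPZ : P ≤ Subgroup.center K) :
    ∃ χ ∈ B, (∀ u ∈ P, (χ : K → ℂ) u = (χ : K → ℂ) 1) ∧
      (charDegree (χ : K → ℂ)).factorization p + (Nat.card P).factorization p =
        (Nat.card K).factorization p := by
  classical
  have hMp := hM.2.1.isPrime
  have hpp : p.Prime := hM.1
  have hcard := card_isDefectGroup hM hB hD
  have hPp : IsPGroup p P := isPGroup_of_card hcard
  haveI hPn : P.Normal := normal_of_le_center P hPZ
  letI : Fintype (K ⧸ P) := Fintype.ofFinite _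
  let π : K →* (K ⧸ P) := QuotientGroup.mk' P
  have hπ : Function.Surjective π := QuotientGroup.mk'_surjective P
  set a := blockCoeff B with ha
  have hacl : IsClassFunction K a := BlockDefect.blockCoeff_isClassFunction B
  have hasing : ∀ y, p ∣ orderOf y → a y = 0 := fun y hy => blockCoeff_eq_zero hM hB hy
  have hāc := pushF_isClassFunction π hπ hacl
  have hpush : ∀ x, ¬ p ∣ orderOf x → pushF π a (π x) = a x := by
    intro x hx
    unfold pushF
    rw [Finset.sum_eq_single x]
    · rw [if_pos rfl]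
    · intro y _ hy
      by_cases h : π y = π x
      · rw [if_pos h]
        apply hasing
        by_contra h2
        exact hy (regular_lift_unique P hpp hPp hPZ h2 hx h)
      · rw [if_neg h]
    · intro h
      exact absurd (Finset.mem_univ _) h
  have hω : ∀ ξ : IrrCharacter (K ⧸ P), omega (ξ : K ⧸ P → ℂ) (pushF π a) =
      ind B (infl π hπ ξ) := by
    intro ξ
    rw [omega_pushF π hπ, ha, omega_blockCoeff]
  obtain ⟨g, hg, -⟩ := id hD
  have hg0 : a g ≠ 0 := ne_zero_of_not_memLocalIdeal hg.2.1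
  have hgreg : ¬ p ∣ orderOf g := fun h => hg0 (hasing g h)
  have hā0 : pushF π a ≠ 0 := fun h => hg0 (by rw [← hpush g hgreg, h]; rfl)
  have hex : ∃ θ : IrrCharacter (K ⧸ P), infl π hπ θ ∈ B := by
    by_contra hcon
    push Not at hcon
    apply hā0
    rw [← invF_omega hāc]
    have : (fun χ : IrrCharacter (K ⧸ P) => omega (χ : K ⧸ P → ℂ) (pushF π a)) = 0 :=
      funext fun ξ => by rw [hω, ind_of_not_mem (hcon ξ)]; rfl
    rw [this, invF_zero]
  obtain ⟨θ, hθ⟩ := hex
  have hcardK : Nat.card K = Nat.card (K ⧸ P) * Nat.card P :=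
    Subgroup.card_eq_card_quotient_mul_card_subgroup P
  have hcardP : (Nat.card P).factorization p = blockDefect p B := by
    rw [hcard, Nat.factorization_pow]
    simp [hpp.factorization_self]
  have hKfac : (Nat.card (K ⧸ P)).factorization p = minExp p B := by
    have h1 := card_factorization_eq (M := M) (p := p) hB
    rw [hcardK, Nat.factorization_mul Nat.card_pos.ne' Nat.card_pos.ne', hcard,
      Nat.factorization_pow] at h1
    simp only [Finsupp.add_apply, Finsupp.smul_apply, hpp.factorization_self, smul_eq_mul,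
      mul_one] at h1
    omega
  have hle1 : (Nat.card (K ⧸ P)).factorization p ≤ (charDegree (θ : K ⧸ P → ℂ)).factorization p := by
    rw [hKfac, ← charDegree_infl π hπ θ]
    exact minExp_le hθ
  have hle2 : (charDegree (θ : K ⧸ P → ℂ)).factorization p ≤ (Nat.card (K ⧸ P)).factorization p :=
    (Nat.factorization_le_iff_dvd (charDegree_ne_zero θ.2) Nat.card_pos.ne').2
      (charDegree_dvd_card θ.2) p
  refine ⟨infl π hπ θ, hθ, fun u hu => ?_, ?_⟩
  · rw [infl_apply, infl_apply, map_one]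
    have : π u = 1 := (QuotientGroup.eq_one_iff u).2 hu
    rw [this]
  · rw [charDegree_infl, le_antisymm hle2 hle1, hcardK,
      Nat.factorization_mul Nat.card_pos.ne' Nat.card_pos.ne']
    rfl

end Central

section Main

variable {G : Type u} [Group G] [Fintype G] {p : ℕ} [hp : Fact p.Prime] {M : Ideal AlgInt}

noncomputable local instance fintypeSubM (K : Subgroup G) : Fintype K := Fintype.ofFinite K

local notation "𝐂[" R "]" => Subgroup.centralizer ((R : Subgroup G) : Set G)
local notation "𝐍[" R "]" => Subgroup.normalizer ((R : Subgroup G) : Set G)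
local notation Q "^^" x => Subgroup.map (MulEquiv.toMonoidHom (MulAut.conj (x : G))) (Q : Subgroup G)

variable {Q : Subgroup G} {e : Set (IrrCharacter (Subgroup.centralizer (Q : Set G)))}

/-- The card of `Z(Q)` in `C_G(Q)`. -/
theorem card_zq (Q : Subgroup G) : Nat.card ((Q ⊓ 𝐂[Q]).subgroupOf 𝐂[Q]) = Nat.card (Q ⊓ 𝐂[Q] : Subgroup G) :=
  Nat.card_congr (Subgroup.subgroupOfEquivOfLe inf_le_right).toEquiv

/-- The block of a maximal pair has central defect group `Z(Q)`. -/
theorem isDefectGroup_zq_of_max (hM : IsPModular p M) {B : Set (IrrCharacter G)}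
    (hmax : IsMaximalBrauerPair p M B Q e) : IsDefectGroup p M e ((Q ⊓ 𝐂[Q]).subgroupOf 𝐂[Q]) := by
  refine isDefectGroup_cen_of_max hM hmax hmax.1.1.2 Relation.ReflTransGen.refl ?_
  intro y hy
  have h1 := le_of_subpairLE hy
  have h2 : (Q ^^ y) = Q := Subgroup.eq_of_le_of_card_ge h1 (by
    rw [Subgroup.card_map_of_injective (MulAut.conj y).injective])
  rw [h2]

/-- **Characterization of maximal Brauer pairs.** -/
theorem exists_isMaximal_iff (hM : IsPModular p M) (he : IsBrauerPair p M Q e) :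
    (∃ B : Set (IrrCharacter G), IsMaximalBrauerPair p M B Q e) ↔
      ∃ θ ∈ e, (∀ z : 𝐂[Q], (z : G) ∈ Q → (θ : 𝐂[Q] → ℂ) z = (θ : 𝐂[Q] → ℂ) 1) ∧
        (charDegree (θ : 𝐂[Q] → ℂ)).factorization p + (Nat.card (Q ⊓ 𝐂[Q] : Subgroup G)).factorization p =
          (Nat.card 𝐂[Q]).factorization p ∧
        (∀ g : G, g ∈ 𝐍[Q] → StabilizesBlock 𝐂[Q] e g → (∃ k : ℕ, orderOf g = p ^ k) → g ∈ Q ⊔ 𝐂[Q]) := by
  classical
  haveI := isPrime_of_isPModular hM
  have hpp : p.Prime := hp.out
  have hQp : IsPGroup p Q := he.1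
  have hZ := inf_subgroupOf_le_center (G := G) Q
  have hZp : IsPGroup p ((Q ⊓ 𝐂[Q]).subgroupOf 𝐂[Q]) :=
    IsPGroup.comap_of_injective (hQp.to_le inf_le_left) _ Subtype.val_injective
  constructor
  · rintro ⟨B, hmax⟩
    have hD := isDefectGroup_zq_of_max hM hmax
    obtain ⟨θ, hθ, hker, hdeg⟩ := exists_ker_char_of_central hM he.2 hD hZ
    refine ⟨θ, hθ, fun z hz => hker z ?_, ?_, ?_⟩
    · rw [Subgroup.mem_subgroupOf]
      exact ⟨hz, z.2⟩
    · rwa [card_zq] at hdeg
    · intro g hg hst ⟨k, hk⟩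
      have hYp : IsPGroup p (Subgroup.zpowers g) := by
        apply IsPGroup.of_card (n := k)
        rw [Nat.card_zpowers, hk]
      have hNs : ∀ r ∈ Subgroup.zpowers g, r ∈ 𝐍[Q] ⊓ stabSub 𝐂[Q] e he.2 := by
        have h : Subgroup.zpowers g ≤ 𝐍[Q] ⊓ stabSub 𝐂[Q] e he.2 :=
          Subgroup.zpowers_le.2 ⟨hg, mem_stabSub.2 hst⟩
        exact fun r hr => h hr
      have h1 := le_prodSub_of_stab hM hmax hYp (fun r hr => (hNs r hr).1)
        (fun r hr => mem_stabSub.1 (hNs r hr).2) (Subgroup.mem_zpowers g)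
      obtain ⟨d, hd, hs⟩ := h1
      have h2 := (Q ⊔ 𝐂[Q]).mul_mem (Subgroup.mem_sup_left hd) (Subgroup.mem_sup_right hs)
      simpa using h2
  · rintro ⟨θ, hθ, hker, hdeg, hst⟩
    -- the defect group of `e`
    obtain ⟨B, hB, -⟩ := existsUnique_isBrauerPairOf hM he
    have heθ : e = blockOf M (θ : 𝐂[Q] → ℂ) := by
      obtain ⟨χ, rfl⟩ := he.2
      ext ψ
      constructor
      · intro h
        exact sameBlock_trans (sameBlock_symm hθ) h
      · intro h
        exact sameBlock_trans hθ h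
    have hidx : (charDegree (θ : 𝐂[Q] → ℂ)).factorization p =
        ((Q ⊓ 𝐂[Q]).subgroupOf 𝐂[Q]).index.factorization p := by
      have h1 : Nat.card 𝐂[Q] = ((Q ⊓ 𝐂[Q]).subgroupOf 𝐂[Q]).index * Nat.card ((Q ⊓ 𝐂[Q]).subgroupOf 𝐂[Q]) :=
        (Subgroup.index_mul_card _).symm
      rw [h1, card_zq, Nat.factorization_mul (Subgroup.index_ne_zero_of_finite) Nat.card_pos.ne'] at hdeg
      simp only [Finsupp.add_apply] at hdeg
      omega
    have hD : IsDefectGroup p M e ((Q ⊓ 𝐂[Q]).subgroupOf 𝐂[Q]) := by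
      rw [heθ]
      exact BlkCentralD.isDefectGroup_of_central hM _ hZp hZ θ hidx
    refine ⟨B, hB, fun R g hRB hle => ?_⟩
    by_contra hRQ
    have hQR : Q ≤ R := le_of_subpairLE hle
    have hlt : Q < R := lt_of_le_of_ne hQR (Ne.symm hRQ)
    have hRp : IsPGroup p R := hRB.1.1
    set R' := R ⊓ 𝐍[Q] with hR'
    have hlt' : Q < R' := lt_inf_normalizer hRp hlt
    have hR'R : R' ≤ R := inf_le_left
    obtain ⟨g', hg', hle'⟩ := exists_subpairLE hM hRB.1 hR'R
    have hn := normalSubpair_of_le hM hRB.1 hle hle' hlt'.le inf_le_right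
    have hR'p : IsPGroup p R' := hRp.to_le hR'R
    -- each element of `R'` is a product
    have hmem : ∀ x ∈ R', ∃ q ∈ Q, q⁻¹ * x ∈ R' ⊓ 𝐂[Q] := by
      intro x hx
      obtain ⟨k, hk⟩ := IsPGroup.iff_orderOf.1 hR'p ⟨x, hx⟩
      rw [Subgroup.orderOf_mk] at hk
      have h1 := hst x hx.2 (hn.2.2.2.2.1 x hx) ⟨k, hk⟩
      have hQC : Q ≤ Subgroup.normalizer ((𝐂[Q] : Subgroup G) : Set G) :=
        (le_normalizer_self Q).trans (normalizer_le_normalizer_cen Q)
      have h2 : Q ⊔ 𝐂[Q] ≤ prodSub Q 𝐂[Q] hQC :=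
        sup_le (left_le_prodSub _ _ _) (right_le_prodSub _ _ _)
      obtain ⟨q, hq, hc⟩ := h2 h1
      exact ⟨q, hq, R'.mul_mem (R'.inv_mem (hlt'.le hq)) hx, hc⟩
    set Rh := R'.subgroupOf 𝐂[Q] with hRh
    have m : CenMatch Rh R' := by
      refine ⟨centralizer_le_centralizer hlt'.le, fun t => ?_⟩
      constructor
      · intro h
        rw [Subgroup.mem_centralizer_iff]
        intro x hx
        obtain ⟨q, hq, hc⟩ := hmem x hx
        have h3 := Subgroup.mem_centralizer_iff.1 t.2 q hq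
        have h4 := congrArg Subtype.val ((Subgroup.mem_centralizer_iff.1 h) ⟨q⁻¹ * x, hc.2⟩
          (Subgroup.mem_subgroupOf.2 hc.1))
        have h5 : q⁻¹ * x * (t : G) = (t : G) * (q⁻¹ * x) := h4
        calc x * (t : G) = q * (q⁻¹ * x * (t : G)) := by group
          _ = q * ((t : G) * (q⁻¹ * x)) := by rw [h5]
          _ = (q * (t : G)) * (q⁻¹ * x) := by group
          _ = ((t : G) * q) * (q⁻¹ * x) := by rw [h3]
          _ = (t : G) * x := by group
      · intro h
        rw [Subgroup.mem_centralizer_iff]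
        intro s hs
        exact Subtype.ext ((Subgroup.mem_centralizer_iff.1 h) s (Subgroup.mem_subgroupOf.1 hs))
    have hRhp : IsPGroup p Rh := IsPGroup.comap_of_injective hR'p _ Subtype.val_injective
    have hpair := exists_pair_hat hM he.2
      (fun t => (subgroupBlockCoeff_eq_ext0 _ e ▸ (ext0_coe _ _ t).symm)) hRhp m hn
    obtain ⟨D, hD', hRD⟩ := exists_defect_ge hM hpair
    haveI hnZ : ((Q ⊓ 𝐂[Q]).subgroupOf 𝐂[Q]).Normal := normal_of_le_center _ hZ
    have h1 := BlkFirst.normal_le_defect hM hnZ hZp he.2 hD'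
    have h2 := card_isDefectGroup hM he.2 hD'
    have h3 := card_isDefectGroup hM he.2 hD
    have h4 : (Q ⊓ 𝐂[Q]).subgroupOf 𝐂[Q] = D := Subgroup.eq_of_le_of_card_ge h1 (by rw [h2, h3])
    apply not_le_of_gt hlt'
    intro x hx
    obtain ⟨q, hq, hc⟩ := hmem x hx
    have h5 : (⟨q⁻¹ * x, hc.2⟩ : 𝐂[Q]) ∈ D := hRD (Subgroup.mem_subgroupOf.2 hc.1)
    rw [← h4, Subgroup.mem_subgroupOf] at h5
    have h6 := Q.mul_mem hq h5.1
    simpa using h6

end Main

end Cfsg.Agent.Lib.MaxPairChar
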