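import Mathlib

/-!
# Power sums for maps whose difference quotients lie in a small subgroup

Let `F` be a finite field and `L : F → F` a bijection with `(L x - L y) ^ N = (x - y) ^ N`, where
`N + 1 < |F|`.  Then for `j ≤ N` with `binom(N, j) ≠ 0` in `F`, the function `y ↦ (L y) ^ j` is a
combination of the monomials `y ^ i`, `i ≤ N`, with `binom(N, i) ≠ 0`.
-/

set_option autoImplicit false

namespace Cfsg.Agent.Lib.PowSumRat

open Finset

variable {F : Type*} [Field F] [Fintype F]

theorem sum_pow_eq_zero_aux (E : ℕ) (hE : 0 < E) (hE2 : E < 2 * (Fintype.card F - 1))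
    (hne : E ≠ Fintype.card F - 1) : ∑ x : F, x ^ E = 0 := by
  classical
  rcases lt_or_gt_of_ne hne with h | h
  · exact FiniteField.sum_pow_lt_card_sub_one F E h
  · have h1 : ∀ x : F, x ^ E = x ^ (E - (Fintype.card F - 1)) := by
      intro x
      by_cases hx : x = 0
      · subst hx
        rw [zero_pow hE.ne', zero_pow (by omega)]
      · have h2 : E = (E - (Fintype.card F - 1)) + (Fintype.card F - 1) := by omega
        conv_lhs => rw [h2, pow_add, FiniteField.pow_card_sub_one_eq_one x hx, mul_one]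
    simp_rw [h1]
    exact FiniteField.sum_pow_lt_card_sub_one F _ (by omega)

theorem sum_pow_card_sub_one : ∑ x : F, x ^ (Fintype.card F - 1) = -1 := by
  classical
  have h1 : ∀ x : F, x ^ (Fintype.card F - 1) = if x = 0 then 0 else 1 := by
    intro x
    split_ifs with hx
    · subst hx
      have : 1 < Fintype.card F := Fintype.one_lt_card
      exact zero_pow (by omega)
    · exact FiniteField.pow_card_sub_one_eq_one x hx
  simp_rw [h1]
  rw [Finset.sum_ite]
  simp only [Finset.sum_const_zero, zero_add, Finset.sum_const, nsmul_eq_mul, mul_one]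
  have h2 : (Finset.univ.filter fun x : F => ¬ x = 0).card = Fintype.card F - 1 := by
    rw [Finset.filter_not, Finset.card_sdiff_of_subset (Finset.subset_univ _)]
    have : (Finset.univ.filter fun x : F => x = 0) = {0} := by
      ext x; simp
    rw [this]
    simp [Finset.card_univ]
  rw [h2]
  have h3 : 1 ≤ Fintype.card F := Fintype.card_pos
  rw [Nat.cast_sub h3]
  simp

theorem pow_eq_sum_of_ratio (L : F → F) (hL : Function.Bijective L) (N : ℕ)
    (hN : N + 1 < Fintype.card F) (h : ∀ x y, (L x - L y) ^ N = (x - y) ^ N) (j : ℕ) (hj : j ≤ N)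
    (hc : (N.choose j : F) ≠ 0) :
    ∃ c : ℕ → F, ∀ y, (L y) ^ j = ∑ i ∈ range (N + 1), (N.choose i : F) * c i * y ^ i := by
  classical
  set q := Fintype.card F with hq
  set e := q - 1 - N + j with he
  let d : ℕ → F := fun m => ∑ x : F, (L x) ^ e * x ^ (N - m)
  refine ⟨fun m => -(-1) ^ j * (N.choose j : F)⁻¹ * ((-1) ^ m * d m), fun y => ?_⟩
  -- the summed identity
  have key : ∑ x : F, (L x) ^ e * (L x - L y) ^ N = ∑ x : F, (L x) ^ e * (x - y) ^ N := by
    exact Finset.sum_congr rfl fun x _ => by rw [h x y]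
  have hL1 : ∀ E : ℕ, ∑ x : F, (L x) ^ E = ∑ x : F, x ^ E := fun E =>
    hL.sum_comp (fun x => x ^ E)
  have lhs : ∑ x : F, (L x) ^ e * (L x - L y) ^ N = -((N.choose j : F) * (-L y) ^ j) := by
    have h1 : ∀ x : F, (L x) ^ e * (L x - L y) ^ N =
        ∑ m ∈ range (N + 1), ((-L y) ^ m * (N.choose m : F)) * (L x) ^ (e + (N - m)) := by
      intro x
      rw [sub_eq_neg_add, add_pow, Finset.mul_sum]
      refine Finset.sum_congr rfl fun m _ => ?_
      rw [pow_add]
      ring
    simp_rw [h1]
    rw [Finset.sum_comm]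
    simp_rw [← Finset.mul_sum, hL1]
    rw [Finset.sum_eq_single j]
    · have h2 : e + (N - j) = q - 1 := by omega
      rw [h2, sum_pow_card_sub_one]
      ring
    · intro m hm hmj
      have hm' : m ≤ N := by simpa [Nat.lt_succ_iff] using hm
      have h2 : ∑ x : F, x ^ (e + (N - m)) = 0 := by
        apply sum_pow_eq_zero_aux
        · have : 1 < q := Fintype.one_lt_card
          omega
        · omega
        · omega
      rw [h2, mul_zero]
    · intro hj'
      exact absurd (by simpa [Nat.lt_succ_iff] using hj) hj'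
  have rhs : ∑ x : F, (L x) ^ e * (x - y) ^ N =
      ∑ m ∈ range (N + 1), (-y) ^ m * (N.choose m : F) * d m := by
    have h1 : ∀ x : F, (L x) ^ e * (x - y) ^ N =
        ∑ m ∈ range (N + 1), ((-y) ^ m * (N.choose m : F)) * ((L x) ^ e * x ^ (N - m)) := by
      intro x
      rw [sub_eq_neg_add, add_pow, Finset.mul_sum]
      refine Finset.sum_congr rfl fun m _ => ?_
      ring
    simp_rw [h1]
    rw [Finset.sum_comm]
    simp_rw [← Finset.mul_sum]
    rfl
  rw [lhs, rhs] at key
  have hc' : (N.choose j : F) * (-L y) ^ j = -∑ m ∈ range (N + 1),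
      (-y) ^ m * (N.choose m : F) * d m := by
    rw [← key]; ring
  have hsign : ((-1 : F) ^ j) * (-1) ^ j = 1 := by
    rw [← mul_pow]; simp
  have h2 : (L y) ^ j = (-1) ^ j * (N.choose j : F)⁻¹ * ((N.choose j : F) * (-L y) ^ j) := by
    rw [neg_pow (L y) j]
    field_simp
    have : ((-1 : F) ^ j) ^ 2 = 1 := by rw [sq, hsign]
    rw [this, mul_one]
  rw [h2, hc', ← Finset.sum_neg_distrib, Finset.mul_sum]
  refine Finset.sum_congr rfl fun m _ => ?_
  rw [neg_pow y m]
  ring

end Cfsg.Agent.Lib.PowSumRat
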