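import Mathlib
import Cfsg.Agent.Lib.PowSumRat

/-!
# McConnell's theorem for additive maps

Let `F` be a finite field of characteristic `l`, `N ∣ |F| - 1`, `N + 1 < |F|`, and `L` an additive
bijection of `F` with `L(x)^N = x^N`.  Then `L(y) = c y^(l^i)`.
-/

set_option autoImplicit false
set_option linter.unusedSectionVars false
set_option linter.unusedVariables false

namespace Cfsg.Agent.Lib.McConnellAdd

open Finset Polynomial

section Lucas

variable {l : ℕ} [hl : Fact l.Prime]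

theorem choose_modEq_base (g n k : ℕ) :
    n.choose k ≡ (n % l ^ g).choose (k % l ^ g) * (n / l ^ g).choose (k / l ^ g) [MOD l] := by
  induction g generalizing n k with
  | zero => simp [Nat.mod_one, Nat.ModEq]
  | succ g ih =>
    have h1 := Choose.choose_modEq_choose_mod_mul_choose_div_nat (p := l) (n := n) (k := k)
    have h2 := ih (n / l) (k / l)
    have h3 := Choose.choose_modEq_choose_mod_mul_choose_div_nat (p := l)
      (n := n % l ^ (g + 1)) (k := k % l ^ (g + 1))
    have hd : l ∣ l ^ (g + 1) := dvd_pow_self l (by omega)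
    rw [Nat.mod_mod_of_dvd _ hd, Nat.mod_mod_of_dvd _ hd, pow_succ', Nat.mod_mul_right_div_self,
      Nat.mod_mul_right_div_self] at h3
    have h4 : n / l ^ (g + 1) = n / l / l ^ g := by rw [pow_succ', Nat.div_div_eq_div_mul]
    have h5 : k / l ^ (g + 1) = k / l / l ^ g := by rw [pow_succ', Nat.div_div_eq_div_mul]
    rw [h4, h5]
    rw [pow_succ']
    calc n.choose k ≡ (n % l).choose (k % l) * (n / l).choose (k / l) [MOD l] := h1
      _ ≡ (n % l).choose (k % l) * (((n / l) % l ^ g).choose ((k / l) % l ^ g) *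
            (n / l / l ^ g).choose (k / l / l ^ g)) [MOD l] := h2.mul_left _
      _ = ((n % l).choose (k % l) * ((n / l) % l ^ g).choose ((k / l) % l ^ g)) *
            (n / l / l ^ g).choose (k / l / l ^ g) := by ring
      _ ≡ (n % (l * l ^ g)).choose (k % (l * l ^ g)) * (n / l / l ^ g).choose (k / l / l ^ g)
            [MOD l] := (h3.symm).mul_right _

/-- Non-divisibility of a binomial coefficient splits along base `l ^ g` digits. -/
theorem not_dvd_choose_iff (g n k : ℕ) :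
    ¬ l ∣ n.choose k ↔
      ¬ l ∣ (n % l ^ g).choose (k % l ^ g) ∧ ¬ l ∣ (n / l ^ g).choose (k / l ^ g) := by
  have h := choose_modEq_base (l := l) g n k
  have h1 : l ∣ n.choose k ↔
      l ∣ (n % l ^ g).choose (k % l ^ g) * (n / l ^ g).choose (k / l ^ g) :=
    h.dvd_iff dvd_rfl
  rw [h1, hl.out.dvd_mul]
  tauto

variable {g : ℕ}

theorem not_dvd_choose_add (hg : 0 < g) {x : ℕ} (hx : x < l ^ g) :
    ∀ (i₁ i₂ n : ℕ), i₁ ≠ i₂ → ¬ l ∣ n.choose (x * (l ^ g) ^ i₁) →
      ¬ l ∣ n.choose ((l ^ g) ^ i₂) →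
      ¬ l ∣ n.choose (x * (l ^ g) ^ i₁ + (l ^ g) ^ i₂) := by
  have hQ2 : 2 ≤ l ^ g := by
    calc 2 ≤ l := hl.out.two_le
      _ = l ^ 1 := (pow_one l).symm
      _ ≤ l ^ g := Nat.pow_le_pow_right hl.out.pos hg
  set Q := l ^ g with hQ
  intro i₁
  induction i₁ with
  | zero =>
    intro i₂ n hne h1 h2
    obtain ⟨i', rfl⟩ : ∃ i', i₂ = i' + 1 := ⟨i₂ - 1, by omega⟩
    rw [not_dvd_choose_iff (l := l) g, ← hQ]
    simp only [pow_zero, mul_one] at h1
    rw [not_dvd_choose_iff (l := l) g, ← hQ] at h1 h2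
    have e1 : (x + Q ^ (i' + 1)) % Q = x := by
      rw [pow_succ, Nat.add_mul_mod_self_right, Nat.mod_eq_of_lt hx]
    have e2 : (x + Q ^ (i' + 1)) / Q = Q ^ i' := by
      rw [pow_succ, Nat.add_mul_div_right _ _ (by omega), Nat.div_eq_of_lt hx, zero_add]
    have e3 : Q ^ (i' + 1) / Q = Q ^ i' := by
      rw [pow_succ, Nat.mul_div_cancel _ (by omega)]
    rw [e3] at h2
    simp only [pow_zero, mul_one]
    rw [e1, e2]
    rw [Nat.mod_eq_of_lt hx] at h1
    exact ⟨h1.1, h2.2⟩
  | succ i₁ ih =>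
    intro i₂ n hne h1 h2
    rw [not_dvd_choose_iff (l := l) g, ← hQ]
    rw [not_dvd_choose_iff (l := l) g, ← hQ] at h1 h2
    have e1 : x * Q ^ (i₁ + 1) / Q = x * Q ^ i₁ := by
      rw [pow_succ, ← mul_assoc, Nat.mul_div_cancel _ (by omega)]
    rw [e1] at h1
    rcases Nat.eq_zero_or_pos i₂ with rfl | hi₂
    · simp only [pow_zero] at h2 ⊢
      have e2 : (x * Q ^ (i₁ + 1) + 1) % Q = 1 := by
        rw [pow_succ, ← mul_assoc, Nat.mul_add_mod_of_lt (by omega)] 
      have e3 : (x * Q ^ (i₁ + 1) + 1) / Q = x * Q ^ i₁ := by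
        rw [pow_succ, ← mul_assoc, Nat.mul_comm (x * Q ^ i₁), Nat.mul_add_div (by omega),
          Nat.div_eq_of_lt (by omega), add_zero]
      rw [e2, e3]
      have e4 : 1 % Q = 1 := Nat.mod_eq_of_lt (by omega)
      rw [e4] at h2
      exact ⟨h2.1, h1.2⟩
    · obtain ⟨i', rfl⟩ : ∃ i', i₂ = i' + 1 := ⟨i₂ - 1, by omega⟩
      have e3 : Q ^ (i' + 1) / Q = Q ^ i' := by
        rw [pow_succ, Nat.mul_div_cancel _ (by omega)]
      rw [e3] at h2
      have e5 : x * Q ^ (i₁ + 1) + Q ^ (i' + 1) = Q * (x * Q ^ i₁ + Q ^ i') := by ring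
      rw [e5, Nat.mul_mod_right, Nat.mul_div_cancel_left _ (by omega)]
      refine ⟨?_, ih i' (n / Q) (by omega) h1.2 h2.2⟩
      simp only [Nat.choose_zero_right]
      exact fun h => hl.out.one_lt.ne' (Nat.dvd_one.mp h)

theorem eq_of_not_dvd_choose_top (hg : 0 < g) :
    ∀ (m n : ℕ), n < (l ^ g) ^ m → (∀ w < m, ¬ l ∣ n.choose ((l ^ g - 1) * (l ^ g) ^ w)) →
      n + 1 = (l ^ g) ^ m := by
  have hQ2 : 2 ≤ l ^ g := by
    calc 2 ≤ l := hl.out.two_le
      _ = l ^ 1 := (pow_one l).symm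
      _ ≤ l ^ g := Nat.pow_le_pow_right hl.out.pos hg
  set Q := l ^ g with hQ
  intro m
  induction m with
  | zero =>
    intro n hn _
    simp at hn ⊢
    exact hn
  | succ m ih =>
    intro n hn h
    have h0 := h 0 (by omega)
    rw [not_dvd_choose_iff (l := l) g, ← hQ] at h0
    simp only [pow_zero, mul_one] at h0
    have e1 : (Q - 1) % Q = Q - 1 := Nat.mod_eq_of_lt (by omega)
    rw [e1] at h0
    have h1 : Q - 1 ≤ n % Q := by
      by_contra hlt
      have : (n % Q).choose (Q - 1) = 0 := Nat.choose_eq_zero_of_lt (by omega)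
      rw [this] at h0
      exact h0.1 (dvd_zero _)
    have h2 : n % Q < Q := Nat.mod_lt _ (by omega)
    have h3 : n % Q = Q - 1 := by omega
    have h4 : n / Q < Q ^ m := by
      rw [Nat.div_lt_iff_lt_mul (by omega)]
      rwa [pow_succ] at hn
    have h5 := ih (n / Q) h4 (fun w hw => by
      have h6 := h (w + 1) (by omega)
      rw [not_dvd_choose_iff (l := l) g, ← hQ] at h6
      have e2 : (Q - 1) * Q ^ (w + 1) / Q = (Q - 1) * Q ^ w := by
        rw [pow_succ, ← mul_assoc, Nat.mul_div_cancel _ (by omega)]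
      rw [e2] at h6
      exact h6.2)
    have h6 := Nat.div_add_mod n Q
    rw [pow_succ, ← h5, h3] at *
    nlinarith [Nat.sub_add_cancel (show 1 ≤ Q by omega)]

end Lucas

section Core

variable {F : Type*} [Field F] [Fintype F] {l : ℕ} [hl : Fact l.Prime] [hchar : CharP F l]

/-- Reduction of exponents. -/
def red (M e : ℕ) : ℕ := if e = 0 then 0 else (e - 1) % M + 1

theorem red_le {M : ℕ} (hM : 0 < M) (e : ℕ) : red M e ≤ M := by
  unfold red
  split_ifs
  · omega
  · have := Nat.mod_lt (e - 1) hM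
    omega

theorem pow_red (hM : 0 < Fintype.card F - 1) (z : F) (e : ℕ) :
    z ^ red (Fintype.card F - 1) e = z ^ e := by
  unfold red
  split_ifs with he
  · rw [he]
  · by_cases hz : z = 0
    · subst hz
      rw [zero_pow (by omega), zero_pow he]
    · set M := Fintype.card F - 1 with hMd
      have h1 : z ^ M = 1 := FiniteField.pow_card_sub_one_eq_one z hz
      have h2 : e = M * ((e - 1) / M) + ((e - 1) % M + 1) := by
        have := Nat.div_add_mod (e - 1) M
        omega
      conv_rhs => rw [h2, pow_add, pow_mul, h1, one_pow, one_mul]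

variable {g m' : ℕ}

/-- The key step: the exponent produced in the top degree must occur among the admissible ones. -/
theorem step (hg : 0 < g) (hm' : 2 ≤ m') (hcard : Fintype.card F = (l ^ g) ^ m')
    (L : F → F) (hL : Function.Bijective L) (b : ℕ → F)
    (hform : ∀ y, L y = ∑ v ∈ range m', b v * y ^ ((l ^ g) ^ v)) (N : ℕ)
    (hN : N + 1 < Fintype.card F) (h : ∀ x y, (L x - L y) ^ N = (x - y) ^ N)
    (x i₁ i₂ u₁ u₂ w : ℕ) (hu₁ : u₁ < m') (hu₂ : u₂ < m') (hw : w < m') (hb₁ : 0 < x → b u₁ ≠ 0)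
    (hb₂ : b u₂ ≠ 0) (he₁ : (u₁ + i₁) % m' = w) (he₂ : (u₂ + i₂) % m' = w) (hx : x + 2 ≤ l ^ g)
    (hJ : ((N.choose (x * (l ^ g) ^ i₁ + (l ^ g) ^ i₂) : ℕ) : F) ≠ 0) :
    ((N.choose ((x + 1) * (l ^ g) ^ w) : ℕ) : F) ≠ 0 := by
  classical
  have hQ2 : 2 ≤ l ^ g := by omega
  set Q := l ^ g with hQ
  have hm0 : 0 < m' := by omega
  have hQpos : 0 < Q := by omega
  set j₀ := x * Q ^ i₁ + Q ^ i₂ with hj₀
  have hj₀N : j₀ ≤ N := by
    by_contra hlt
    rw [Nat.choose_eq_zero_of_lt (by omega)] at hJ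
    simp at hJ
  obtain ⟨c, hc⟩ := Cfsg.Agent.Lib.PowSumRat.pow_eq_sum_of_ratio L hL N hN h j₀ hj₀N hJ
  set k := m' - 1 - w with hk
  have hwk : w + k = m' - 1 := by omega
  -- Frobenius on the sum
  have hfrob : ∀ (y : F) (i : ℕ), (L y) ^ (Q ^ i) =
      ∑ v ∈ range m', (b v) ^ (Q ^ i) * y ^ (Q ^ (v + i)) := by
    intro y i
    rw [hform y]
    have e : Q ^ i = l ^ (g * i) := by rw [hQ, pow_mul]
    rw [e, sum_pow_char_pow l (g * i)]
    refine Finset.sum_congr rfl fun v _ => ?_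
    rw [mul_pow, ← pow_mul, ← e, pow_add]
  have hzmod : ∀ (z : F) (n : ℕ), z ^ (Q ^ n) = z ^ (Q ^ (n % m')) := by
    intro z n
    conv_lhs => rw [← Nat.div_add_mod n m', pow_add, pow_mul, pow_mul]
    have h1 : z ^ (((Q ^ m') ^ (n / m'))) = z := by
      rw [← hcard]
      exact FiniteField.pow_card_pow _ _
    rw [← pow_mul, pow_mul z, ← pow_mul Q, h1] at *
  -- the polynomials
  let A : ℕ → F[X] := fun i =>
    ∑ v ∈ range m', C ((b v) ^ (Q ^ i)) * X ^ (Q ^ ((v + i + k) % m'))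
  have hAeval : ∀ (i : ℕ) (z : F), (A i).eval z = (L (z ^ (Q ^ k))) ^ (Q ^ i) := by
    intro i z
    rw [hfrob, eval_finsetSum]
    refine Finset.sum_congr rfl fun v _ => ?_
    simp only [eval_mul, eval_C, eval_pow, eval_X]
    have h1 : z ^ Q ^ ((v + i + k) % m') = (z ^ Q ^ k) ^ Q ^ (v + i) := by
      calc z ^ Q ^ ((v + i + k) % m') = z ^ Q ^ (v + i + k) := (hzmod z _).symm
        _ = z ^ (Q ^ k * Q ^ (v + i)) := by
            rw [← Nat.pow_add]
            congr 2
            ring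
        _ = _ := pow_mul z _ _
    rw [h1]
  have hAdeg : ∀ i, (A i).natDegree ≤ Q ^ (m' - 1) := by
    intro i
    apply natDegree_sum_le_of_forall_le
    intro v _
    refine (natDegree_C_mul_X_pow_le _ _).trans ?_
    apply Nat.pow_le_pow_right hQpos
    have := Nat.mod_lt (v + i + k) hm0
    omega
  have hAtop : ∀ (i u : ℕ), u < m' → (u + i) % m' = w → (A i).coeff (Q ^ (m' - 1)) = (b u) ^ (Q ^ i) := by
    intro i u hu hui
    simp only [A]
    rw [finsetSum_coeff, Finset.sum_eq_single u]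
    · rw [coeff_C_mul_X_pow, if_pos]
      congr 1
      have : (u + i + k) % m' = m' - 1 := by
        rw [Nat.add_mod, hui, Nat.mod_eq_of_lt (show k < m' by omega), hwk]
        exact Nat.mod_eq_of_lt (by omega)
      rw [this]
    · intro v hv hne
      rw [coeff_C_mul_X_pow, if_neg]
      intro heq
      have h1 := Nat.pow_right_injective hQ2 heq
      have h2 : (u + i + k) % m' = m' - 1 := by
        rw [Nat.add_mod, hui, Nat.mod_eq_of_lt (show k < m' by omega), hwk]
        exact Nat.mod_eq_of_lt (by omega)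
      have h3 : (v + i + k) % m' = (u + i + k) % m' := by rw [h2, ← h1]
      have h4 : (v + i + k) ≡ (u + i + k) [MOD m'] := h3
      have h5 : v ≡ u [MOD m'] := by
        have h6 : v + (i + k) ≡ u + (i + k) [MOD m'] := by
          simpa [add_assoc] using h4
        exact Nat.ModEq.add_right_cancel' _ h6
      have h7 := Nat.ModEq.eq_of_lt_of_lt h5 (Finset.mem_range.mp hv) hu
      exact hne h7
    · intro hh
      exact absurd (Finset.mem_range.mpr hu) hh
  have hbp : ∀ (a : F) (n : ℕ), a ≠ 0 → a ^ n ≠ 0 := fun a n ha => pow_ne_zero n ha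
  have hA₂ : (A i₂).coeff (Q ^ (m' - 1)) ≠ 0 := by
    rw [hAtop i₂ u₂ hu₂ he₂]; exact hbp _ _ hb₂
  have hA₂deg : (A i₂).natDegree = Q ^ (m' - 1) :=
    natDegree_eq_of_le_of_coeff_ne_zero (hAdeg i₂) hA₂
  have hA₂ne : A i₂ ≠ 0 := fun h0 => hA₂ (by rw [h0]; simp)
  -- the product
  set Pr := (A i₁) ^ x * A i₂ with hPr
  have hA₁pow : (A i₁) ^ x ≠ 0 ∧ x * (A i₁).natDegree = x * Q ^ (m' - 1) := by
    rcases Nat.eq_zero_or_pos x with hx0 | hxpos
    · subst hx0
      simp
    · have hA₁ : (A i₁).coeff (Q ^ (m' - 1)) ≠ 0 := by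
        rw [hAtop i₁ u₁ hu₁ he₁]; exact hbp _ _ (hb₁ hxpos)
      have hA₁deg : (A i₁).natDegree = Q ^ (m' - 1) :=
        natDegree_eq_of_le_of_coeff_ne_zero (hAdeg i₁) hA₁
      refine ⟨pow_ne_zero _ (fun h0 => hA₁ (by rw [h0]; simp)), by rw [hA₁deg]⟩
  have hPrne : Pr ≠ 0 := mul_ne_zero hA₁pow.1 hA₂ne
  set D := (x + 1) * Q ^ (m' - 1) with hD
  have hPrdeg : Pr.natDegree = D := by
    rw [hPr, natDegree_mul hA₁pow.1 hA₂ne, natDegree_pow, hA₁pow.2, hA₂deg, hD]
    ring
  have hPrcoeff : Pr.coeff D ≠ 0 := by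
    rw [← hPrdeg]
    exact leadingCoeff_ne_zero.mpr hPrne
  have hPreval : ∀ z : F, Pr.eval z = (L (z ^ (Q ^ k))) ^ j₀ := by
    intro z
    rw [hPr, eval_mul, eval_pow, hAeval, hAeval, hj₀, pow_add, mul_comm x, pow_mul]
  -- the reduced polynomial
  set M := Fintype.card F - 1 with hMd
  have hM0 : 0 < M := by omega
  let R : F[X] := ∑ i ∈ range (N + 1), C ((N.choose i : F) * c i) * X ^ (red M (i * Q ^ k))
  have hRdeg : R.natDegree ≤ M := by
    apply natDegree_sum_le_of_forall_le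
    intro i _
    exact (natDegree_C_mul_X_pow_le _ _).trans (red_le hM0 _)
  have hReval : ∀ z : F, R.eval z = (L (z ^ (Q ^ k))) ^ j₀ := by
    intro z
    rw [hc, eval_finsetSum]
    refine Finset.sum_congr rfl fun i _ => ?_
    simp only [eval_mul, eval_C, eval_pow, eval_X]
    rw [hMd, pow_red (by omega), mul_comm i, pow_mul]
  have hcardF : 0 < Fintype.card F := Fintype.card_pos
  have hQm : Q ^ (m' - 1) * Q = Q ^ m' := by
    rw [← pow_succ]; congr 1; omega
  have hDlt : D < M := by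
    have h1 : D ≤ (Q - 1) * Q ^ (m' - 1) := by
      rw [hD]; exact Nat.mul_le_mul_right _ (by omega)
    have h2 : (Q - 1) * Q ^ (m' - 1) + Q ^ (m' - 1) = Q ^ m' := by
      rw [← hQm, Nat.sub_mul, one_mul, mul_comm Q]
      have : Q ^ (m' - 1) ≤ Q ^ (m' - 1) * Q := Nat.le_mul_of_pos_right _ hQpos
      omega
    have h3 : 2 ≤ Q ^ (m' - 1) := by
      calc 2 ≤ Q := hQ2
        _ = Q ^ 1 := (pow_one Q).symm
        _ ≤ Q ^ (m' - 1) := Nat.pow_le_pow_right hQpos (by omega)
    rw [hMd, hcard]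
    omega
  have hPrR : Pr = R := by
    apply Polynomial.eq_of_natDegree_lt_card_of_eval_eq' (s := (Finset.univ : Finset F))
    · intro z _
      rw [hPreval, hReval]
    · rw [hPrdeg, Finset.card_univ]
      have : max D R.natDegree ≤ M := max_le hDlt.le hRdeg
      omega
  -- read off the coefficient
  rw [hPrR] at hPrcoeff
  have hRc : R.coeff D = ∑ i ∈ range (N + 1),
      (if D = red M (i * Q ^ k) then (N.choose i : F) * c i else 0) := by
    simp only [R]
    rw [finsetSum_coeff]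
    refine Finset.sum_congr rfl fun i _ => ?_
    rw [coeff_C_mul_X_pow]
  rw [hRc] at hPrcoeff
  obtain ⟨i, hi, hi2⟩ := Finset.exists_ne_zero_of_sum_ne_zero hPrcoeff
  by_cases hii : D = red M (i * Q ^ k)
  swap
  · rw [if_neg hii] at hi2; exact absurd rfl hi2
  rw [if_pos hii] at hi2
  have hiN : i ≤ N := Nat.lt_succ_iff.mp (Finset.mem_range.mp hi)
  have hDpos : 0 < D := by
    rw [hD]; positivity
  -- arithmetic
  have hne0 : i * Q ^ k ≠ 0 := by
    intro h0
    rw [h0] at hii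
    simp [red] at hii
    omega
  unfold red at hii
  rw [if_neg hne0] at hii
  have h1 : i * Q ^ k ≡ D [MOD M] := by
    have h2 : (i * Q ^ k - 1) ≡ (D - 1) [MOD M] := by
      have h3 : (D - 1) % M = D - 1 := Nat.mod_eq_of_lt (by omega)
      have h4 : D - 1 = (i * Q ^ k - 1) % M := by omega
      unfold Nat.ModEq
      rw [h3]
      exact h4.symm
    have h5 := h2.add_right 1
    have h6 : i * Q ^ k - 1 + 1 = i * Q ^ k := Nat.sub_add_cancel (Nat.pos_of_ne_zero hne0)
    have h7 : D - 1 + 1 = D := Nat.sub_add_cancel hDpos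
    rwa [h6, h7] at h5
  have h2 : D = (x + 1) * Q ^ w * Q ^ k := by
    rw [hD, mul_assoc, ← pow_add, hwk]
  rw [h2] at h1
  have hcop : Nat.Coprime M (Q ^ k) := by
    apply Nat.Coprime.pow_right
    rw [hQ]
    apply Nat.Coprime.pow_right
    rw [Nat.coprime_comm, Nat.Prime.coprime_iff_not_dvd hl.out]
    intro hdvd
    have h3 : l ∣ Fintype.card F := by
      rw [hcard, hQ]
      exact dvd_pow (dvd_pow_self l hg.ne') (by omega)
    have h4 : Fintype.card F = M + 1 := by omega
    rw [h4] at h3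
    have h5 := (Nat.dvd_add_right hdvd).mp h3
    exact hl.out.one_lt.ne' (Nat.dvd_one.mp h5)
  have h3 : i ≡ (x + 1) * Q ^ w [MOD M] :=
    Nat.ModEq.cancel_right_of_coprime (by rwa [Nat.gcd_comm, Nat.gcd_comm] ) h1
  have hlt2 : (x + 1) * Q ^ w < M := by
    refine lt_of_le_of_lt ?_ hDlt
    rw [hD]
    exact Nat.mul_le_mul_left _ (Nat.pow_le_pow_right hQpos (by omega))
  have hilt : i < M := by omega
  have h4 := Nat.ModEq.eq_of_lt_of_lt h3 hilt hlt2
  rw [← h4]
  intro h0
  rw [h0, zero_mul] at hi2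
  exact hi2 rfl

theorem core (hg : 0 < g) (hm' : 2 ≤ m') (hcard : Fintype.card F = (l ^ g) ^ m')
    (L : F → F) (hL : Function.Bijective L) (b : ℕ → F)
    (hform : ∀ y, L y = ∑ v ∈ range m', b v * y ^ ((l ^ g) ^ v)) (N : ℕ)
    (hNdvd : N ∣ Fintype.card F - 1) (hN0 : 0 < N)
    (hN : N + 1 < Fintype.card F) (h : ∀ x y, (L x - L y) ^ N = (x - y) ^ N)
    (hgen : ∀ Y : Set ℕ, 0 ∈ Y → (∀ i ∈ Y, ∀ u < m', b u ≠ 0 → (i + u) % m' ∈ Y) → ∀ w < m', w ∈ Y)
    (u₁ u₂ : ℕ) (hu₁ : u₁ < m') (hu₂ : u₂ < m') (hne : u₁ ≠ u₂) (hb₁ : b u₁ ≠ 0) (hb₂ : b u₂ ≠ 0) :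
    False := by
  classical
  have hQ2 : 2 ≤ l ^ g := by
    calc 2 ≤ l := hl.out.two_le
      _ = l ^ 1 := (pow_one l).symm
      _ ≤ l ^ g := Nat.pow_le_pow_right hl.out.pos hg
  have hcast : ∀ j, ((N.choose j : ℕ) : F) ≠ 0 ↔ ¬ l ∣ N.choose j := by
    intro j
    rw [Ne, CharP.cast_eq_zero_iff F l]
  have hm0 : 0 < m' := by omega
  set Q := l ^ g with hQ
  -- `N` is prime to the characteristic
  have hJ1 : ((N.choose 1 : ℕ) : F) ≠ 0 := by
    rw [hcast, Nat.choose_one_right]
    intro hdvd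
    have h1 : l ∣ Fintype.card F - 1 := hdvd.trans hNdvd
    have h2 : l ∣ Fintype.card F := by
      rw [hcard, hQ]
      exact dvd_pow (dvd_pow_self l hg.ne') (by omega)
    have h3 : Fintype.card F = (Fintype.card F - 1) + 1 := by
      have := Fintype.card_pos (α := F)
      omega
    rw [h3] at h2
    have h5 := (Nat.dvd_add_right h1).mp h2
    exact hl.out.one_lt.ne' (Nat.dvd_one.mp h5)
  -- the powers of `Q`
  have hpos : ∀ w < m', ((N.choose (Q ^ w) : ℕ) : F) ≠ 0 := by
    refine hgen {i | ((N.choose (Q ^ i) : ℕ) : F) ≠ 0} ?_ ?_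
    · simpa using hJ1
    · intro i hi u hu hbu
      have hw : (u + i) % m' < m' := Nat.mod_lt _ hm0
      have h1 := step hg hm' hcard L hL b hform N hN h 0 i i u u ((u + i) % m') hu hu hw
        (fun h => absurd h (by omega)) hbu rfl rfl (by omega) (by simpa using hi)
      simp only [zero_add, one_mul] at h1
      simpa [add_comm] using h1
  have hall : ∀ x, x + 1 < Q → ∀ w < m', ((N.choose ((x + 1) * Q ^ w) : ℕ) : F) ≠ 0 := by
    intro x
    induction x with
    | zero =>
      intro _ w hw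
      simpa using hpos w hw
    | succ x ih =>
      intro hx w hw
      have ih' := ih (by omega)
      set i₁ := (w + m' - u₁) % m' with hi₁
      set i₂ := (w + m' - u₂) % m' with hi₂
      have hi₁lt : i₁ < m' := Nat.mod_lt _ hm0
      have hi₂lt : i₂ < m' := Nat.mod_lt _ hm0
      have he₁ : (u₁ + i₁) % m' = w := by
        rw [hi₁, Nat.add_mod_mod]
        have : u₁ + (w + m' - u₁) = w + m' := by omega
        rw [this, Nat.add_mod_right, Nat.mod_eq_of_lt hw]
      have he₂ : (u₂ + i₂) % m' = w := by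
        rw [hi₂, Nat.add_mod_mod]
        have : u₂ + (w + m' - u₂) = w + m' := by omega
        rw [this, Nat.add_mod_right, Nat.mod_eq_of_lt hw]
      have hii : i₁ ≠ i₂ := by
        intro heq
        have h1 : u₁ + i₁ ≡ u₂ + i₂ [MOD m'] := by
          unfold Nat.ModEq; rw [he₁, he₂]
        rw [← heq] at h1
        have h2 : u₁ ≡ u₂ [MOD m'] := Nat.ModEq.add_right_cancel' _ h1
        exact hne (Nat.ModEq.eq_of_lt_of_lt h2 hu₁ hu₂)
      have hJ : ((N.choose ((x + 1) * Q ^ i₁ + Q ^ i₂) : ℕ) : F) ≠ 0 := by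
        rw [hcast]
        refine not_dvd_choose_add hg (by omega) i₁ i₂ N hii ?_ ?_
        · exact (hcast _).mp (ih' i₁ hi₁lt)
        · exact (hcast _).mp (hpos i₂ hi₂lt)
      exact step hg hm' hcard L hL b hform N hN h (x + 1) i₁ i₂ u₁ u₂ w hu₁ hu₂ hw
        (fun _ => hb₁) hb₂ he₁ he₂ (by omega) hJ
  have htop : ∀ w < m', ¬ l ∣ N.choose ((l ^ g - 1) * (l ^ g) ^ w) := by
    intro w hw
    have h1 := hall (Q - 2) (by omega) w hw
    rw [hcast] at h1
    have e : Q - 2 + 1 = Q - 1 := by omega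
    rwa [e] at h1
  have hfin := eq_of_not_dvd_choose_top hg m' N (by rw [← hcard]; omega) htop
  rw [← hcard] at hfin
  omega

/-- Every additive map of a finite field is given by a linearised polynomial. -/
theorem exists_linearized (m : ℕ) (hcard : Fintype.card F = l ^ m) (L : F →+ F) :
    ∃ a : ℕ → F, ∀ y, L y = ∑ u ∈ range m, a u * y ^ (l ^ u) := by
  classical
  letI : Algebra (ZMod l) F := ZMod.algebra F l
  haveI : Module.Finite (ZMod l) F := Module.Finite.of_finite
  have hfr : Module.finrank (ZMod l) F = m := by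
    have h1 := Module.card_eq_pow_finrank (K := ZMod l) (V := F)
    rw [ZMod.card, hcard] at h1
    exact (Nat.pow_right_injective hl.out.two_le h1).symm
  let Φ : (Fin m → F) → (F →+ F) := fun a =>
    { toFun := fun y => ∑ u : Fin m, a u * y ^ (l ^ (u : ℕ))
      map_zero' := by
        apply Finset.sum_eq_zero
        intro u _
        have : 0 < l ^ (u : ℕ) := pow_pos hl.out.pos _
        rw [zero_pow this.ne', mul_zero]
      map_add' := by
        intro x y
        rw [← Finset.sum_add_distrib]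
        refine Finset.sum_congr rfl fun u _ => ?_
        rw [add_pow_char_pow, mul_add] }
  have hΦapply : ∀ a y, Φ a y = ∑ u : Fin m, a u * y ^ (l ^ (u : ℕ)) := fun _ _ => rfl
  have hinj : Function.Injective Φ := by
    intro a a' heq
    let P : F[X] := ∑ u : Fin m, C (a u - a' u) * X ^ (l ^ (u : ℕ))
    have hP0 : ∀ y, P.eval y = 0 := by
      intro y
      have h1 := congrArg (fun f : F →+ F => f y) heq
      simp only [hΦapply] at h1
      simp only [P, eval_finsetSum, eval_mul, eval_C, eval_pow, eval_X, sub_mul]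
      rw [Finset.sum_sub_distrib, h1, sub_self]
    have hPdeg : P.natDegree < Fintype.card F := by
      have hm : 0 < m ∨ m = 0 := by omega
      rw [hcard]
      have h1 : P.natDegree ≤ l ^ (m - 1) := by
        apply natDegree_sum_le_of_forall_le
        intro u _
        refine (natDegree_C_mul_X_pow_le _ _).trans ?_
        exact Nat.pow_le_pow_right hl.out.pos (by have := u.2; omega)
      rcases hm with hm | hm
      · exact lt_of_le_of_lt h1 (Nat.pow_lt_pow_right hl.out.one_lt (by omega))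
      · subst hm
        simp only [P]
        simp
    have hP : P = 0 := by
      have h1 := Polynomial.eq_of_natDegree_lt_card_of_eval_eq' P 0
        (Finset.univ : Finset F) (fun y _ => by rw [hP0 y]; simp)
        (by simpa [Finset.card_univ] using hPdeg)
      exact h1
    funext u
    have h2 : P.coeff (l ^ (u : ℕ)) = a u - a' u := by
      simp only [P]
      rw [finsetSum_coeff, Finset.sum_eq_single u]
      · rw [coeff_C_mul_X_pow, if_pos rfl]
      · intro v _ hvu
        rw [coeff_C_mul_X_pow, if_neg]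
        intro heq2
        exact hvu (Fin.ext (Nat.pow_right_injective hl.out.two_le heq2).symm)
      · intro hh; exact absurd (Finset.mem_univ u) hh
    rw [hP, coeff_zero] at h2
    exact sub_eq_zero.mp h2.symm
  haveI : Finite (F →+ F) := Finite.of_injective (fun f : F →+ F => (f : F → F)) DFunLike.coe_injective
  have hcards : Nat.card (F →+ F) = Nat.card (Fin m → F) := by
    let e1 : (F →+ F) ≃ (F →ₗ[ZMod l] F) :=
      ⟨fun f => f.toZModLinearMap l, fun f => f.toAddMonoidHom, fun f => by ext; rfl,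
        fun f => by ext; rfl⟩
    let b := Module.finBasis (ZMod l) F
    let e2 : (Fin (Module.finrank (ZMod l) F) → F) ≃ (F →ₗ[ZMod l] F) :=
      (b.constr (ZMod l)).toEquiv
    rw [Nat.card_congr e1, ← Nat.card_congr e2, hfr]
  have hbij : Function.Bijective Φ :=
    (Nat.bijective_iff_injective_and_card Φ).mpr ⟨hinj, hcards.symm⟩
  obtain ⟨a, ha⟩ := hbij.2 L
  refine ⟨fun u => if h : u < m then a ⟨u, h⟩ else 0, fun y => ?_⟩
  rw [← ha, hΦapply, Finset.sum_range]
  refine Finset.sum_congr rfl fun u _ => ?_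
  simp

/-- **McConnell's theorem for additive maps.** -/
theorem monomial_of_pow_eq (L : F →+ F) (hL : Function.Bijective L) (N : ℕ) (hN0 : 0 < N)
    (hNdvd : N ∣ Fintype.card F - 1) (hN : N + 1 < Fintype.card F) (h : ∀ x, (L x) ^ N = x ^ N) :
    ∃ (c : F) (i : ℕ), c ≠ 0 ∧ ∀ y, L y = c * y ^ (l ^ i) := by
  classical
  obtain ⟨n, hlp, hcardn⟩ := FiniteField.card F l
  obtain ⟨m, hm⟩ : ∃ m : ℕ, m = (n : ℕ) := ⟨_, rfl⟩
  rw [← hm] at hcardn
  have hmpos : 0 < m := hm ▸ n.pos
  obtain ⟨a, ha⟩ := exists_linearized (m := m) hcardn L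
  by_cases htwo : ∃ u₁ u₂, u₁ < m ∧ u₂ < m ∧ u₁ ≠ u₂ ∧ a u₁ ≠ 0 ∧ a u₂ ≠ 0
  swap
  · -- at most one nonzero coefficient
    push Not at htwo
    have hsome : ∃ u, u < m ∧ a u ≠ 0 := by
      by_contra hnone
      push Not at hnone
      have h1 : ∀ y, L y = 0 := by
        intro y
        rw [ha y]
        apply Finset.sum_eq_zero
        intro u hu
        rw [hnone u (Finset.mem_range.mp hu), zero_mul]
      have h2 := hL.1 ((h1 0).trans (h1 1).symm)
      exact zero_ne_one h2
    obtain ⟨u, hu, hau⟩ := hsome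
    refine ⟨a u, u, hau, fun y => ?_⟩
    rw [ha y]
    apply Finset.sum_eq_single_of_mem u (Finset.mem_range.mpr hu)
    intro v hv hvu
    have h1 := htwo v u (Finset.mem_range.mp hv) hu hvu
    by_contra h2
    have h3 : a v ≠ 0 := fun h0 => h2 (by rw [h0, zero_mul])
    exact hau (h1 h3)
  exfalso
  obtain ⟨u₁, u₂, hu₁, hu₂, hne, hb₁, hb₂⟩ := htwo
  haveI : NeZero m := ⟨hmpos.ne'⟩
  let V : Set (ZMod m) := {s | ∃ u, u < m ∧ a u ≠ 0 ∧ s = (u : ZMod m)}
  let S := AddSubmonoid.closure V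
  have hcm : ∃ d : ℕ, 0 < d ∧ (d : ZMod m) ∈ S := ⟨m, hmpos, by simp⟩
  set g := Nat.find hcm with hgdef
  have hg : 0 < g := (Nat.find_spec hcm).1
  have hgS : (g : ZMod m) ∈ S := (Nat.find_spec hcm).2
  have hgdvd : ∀ e : ℕ, (e : ZMod m) ∈ S → g ∣ e := by
    intro e he
    by_contra hnd
    have hr : 0 < e % g := Nat.pos_of_ne_zero fun h0 => hnd (Nat.dvd_of_mod_eq_zero h0)
    have hrS : ((e % g : ℕ) : ZMod m) ∈ S := by
      have h1 : ((e % g : ℕ) : ZMod m) = (e : ZMod m) + (((m - 1) * (e / g)) • (g : ZMod m)) := by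
        have h2 : (e : ZMod m) = ((g * (e / g) + e % g : ℕ) : ZMod m) := by
          rw [Nat.div_add_mod]
        have h3 : ((m - 1 : ℕ) : ZMod m) = -1 := by
          rw [Nat.cast_sub hmpos]; simp
        rw [h2]
        simp only [nsmul_eq_mul, Nat.cast_mul, Nat.cast_add, h3]
        ring
      rw [h1]
      exact S.add_mem he (S.nsmul_mem hgS _)
    have h6 := Nat.find_min hcm (Nat.mod_lt e hg)
    exact h6 ⟨hr, hrS⟩
  have hgm : g ∣ m := hgdvd m (by simp)
  have hgsupp : ∀ u, u < m → a u ≠ 0 → g ∣ u := fun u hu hau =>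
    hgdvd u (AddSubmonoid.subset_closure ⟨u, hu, hau, rfl⟩)
  obtain ⟨m', hm'⟩ := hgm
  have hm'pos : 0 < m' := Nat.pos_of_ne_zero (by rintro rfl; simp at hm'; omega)
  obtain ⟨v₁, hv₁⟩ := hgsupp u₁ hu₁ hb₁
  obtain ⟨v₂, hv₂⟩ := hgsupp u₂ hu₂ hb₂
  have hv₁lt : v₁ < m' := by
    rw [hv₁, hm'] at hu₁
    exact Nat.lt_of_mul_lt_mul_left hu₁
  have hv₂lt : v₂ < m' := by
    rw [hv₂, hm'] at hu₂
    exact Nat.lt_of_mul_lt_mul_left hu₂
  have hvne : v₁ ≠ v₂ := fun e => hne (by rw [hv₁, hv₂, e])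
  have hm'2 : 2 ≤ m' := by omega
  have hcardQ : Fintype.card F = (l ^ g) ^ m' := by rw [hcardn, hm', pow_mul]
  let b : ℕ → F := fun v => a (g * v)
  have hform : ∀ y, L y = ∑ v ∈ range m', b v * y ^ ((l ^ g) ^ v) := by
    intro y
    rw [ha y]
    have hsub : (range m').image (fun v => g * v) ⊆ range m := by
      intro u hu
      obtain ⟨v, hv, rfl⟩ := Finset.mem_image.mp hu
      rw [Finset.mem_range] at hv ⊢
      rw [hm']
      exact Nat.mul_lt_mul_of_pos_left hv hg
    rw [← Finset.sum_subset hsub]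
    · rw [Finset.sum_image]
      · refine Finset.sum_congr rfl fun v _ => ?_
        simp only [b]
        rw [pow_mul]
      · intro x _ y _ hxy
        exact Nat.eq_of_mul_eq_mul_left hg hxy
    · intro u hu hu'
      by_contra hne0
      have h1 : a u ≠ 0 := fun h0 => hne0 (by rw [h0, zero_mul])
      obtain ⟨v, hv⟩ := hgsupp u (Finset.mem_range.mp hu) h1
      apply hu'
      refine Finset.mem_image.mpr ⟨v, Finset.mem_range.mpr ?_, hv.symm⟩
      have h2 := Finset.mem_range.mp hu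
      rw [hv, hm'] at h2
      exact Nat.lt_of_mul_lt_mul_left h2
  have hgen : ∀ Y : Set ℕ, 0 ∈ Y → (∀ i ∈ Y, ∀ u < m', b u ≠ 0 → (i + u) % m' ∈ Y) →
      ∀ w < m', w ∈ Y := by
    intro Y h0 hY w hw
    have key : ∀ s ∈ S, g ∣ s.val ∧ s.val / g ∈ Y := by
      intro s hs
      induction hs using AddSubmonoid.closure_induction_right with
      | zero => simp [h0]
      | add_right x y hx hy ih =>
        obtain ⟨u, hu, hau, rfl⟩ := hy
        obtain ⟨v, hv⟩ := hgsupp u hu hau
        obtain ⟨⟨t, ht⟩, ih2⟩ := ih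
        have hvlt : v < m' := by
          rw [hv, hm'] at hu
          exact Nat.lt_of_mul_lt_mul_left hu
        have hval : (x + (u : ZMod m)).val = g * ((t + v) % m') := by
          rw [ZMod.val_add, ZMod.val_natCast, Nat.mod_eq_of_lt hu, ht, hv, ← mul_add, hm',
            Nat.mul_mod_mul_left]
        have hdiv : (x + (u : ZMod m)).val / g = (t + v) % m' := by
          rw [hval, Nat.mul_div_cancel_left _ hg]
        refine ⟨⟨_, hval⟩, ?_⟩
        rw [hdiv]
        have h3 : t ∈ Y := by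
          have : x.val / g = t := by rw [ht, Nat.mul_div_cancel_left _ hg]
          rwa [this] at ih2
        refine hY t h3 v hvlt ?_
        simp only [b]
        rwa [← hv]
    have hw2 : ((w * g : ℕ) : ZMod m) ∈ S := by
      rw [Nat.cast_mul, ← nsmul_eq_mul]
      exact S.nsmul_mem hgS _
    have h5 := (key _ hw2).2
    have hlt : w * g < m := by
      rw [hm', mul_comm]
      exact Nat.mul_lt_mul_of_pos_left hw hg
    rw [ZMod.val_natCast, Nat.mod_eq_of_lt hlt, Nat.mul_div_cancel _ hg] at h5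
    exact h5
  have hbv₁ : b v₁ ≠ 0 := by simp only [b]; rwa [← hv₁]
  have hbv₂ : b v₂ ≠ 0 := by simp only [b]; rwa [← hv₂]
  exact core hg hm'2 hcardQ L hL b hform N hNdvd hN0 hN
    (fun x y => by rw [← map_sub, h]) hgen v₁ v₂ hv₁lt hv₂lt hvne hbv₁ hbv₂

end Core

end Cfsg.Agent.Lib.McConnellAdd
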