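import Mathlib
import Cfsg.Agent.Lib.McLFus
import Cfsg.Agent.Lib.McLCentData
import Cfsg.Agent.Lib.OutCrit
import Cfsg.Agent.Lib.GL42A8

set_option autoImplicit false
set_option maxRecDepth 100000
set_option linter.style.haveILetI false

/-!
# The centralizer of an involution in the McLaughlin group

All involutions are conjugate, and the centralizer of an involution is a non split double cover of the alternating
group of degree 8.  The elements of the centralizer permute a system of 15 blocks of imprimitivity of an orbit of size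
240, and this system carries the structure of the 15 non zero vectors of a four dimensional space over the field with
two elements.
-/

namespace Cfsg.Agent.Lib.McLCent

open Cfsg.Agent.Lib.PermChain12 Cfsg.Agent.Lib.McLBridge Cfsg.Agent.Lib.McLFus
  Cfsg.Agent.Lib.McLCentData
open Cfsg.Agent.Lib.McLFusData hiding lab

/-! ### A criterion -/

theorem ndc_of_hom {H K : Type*} [Group H] [Group K] (hK : Subgroup.center K = ⊥) (Θ : H →* K)
    (hs : Function.Surjective Θ) (t : H) (ht : t ≠ 1) (hker : ∀ c, Θ c = 1 ↔ c = 1 ∨ c = t)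
    (htc : ∀ c, c * t = t * c) (x : H) (hx : x * x = t) : Cfsg.IsNonsplitDoubleCover H K := by
  have htt : t * t = 1 := by
    have h1 : Θ (t * t) = 1 := by
      rw [map_mul, (hker t).2 (Or.inr rfl), one_mul]
    rcases (hker _).1 h1 with h | h
    · exact h
    · exact absurd (mul_eq_left.mp h) ht
  have hcen : Subgroup.center H = Θ.ker := by
    ext g
    rw [MonoidHom.mem_ker]
    constructor
    · intro hg
      have h1 : Θ g ∈ Subgroup.center K := by
        rw [Subgroup.mem_center_iff]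
        intro a
        obtain ⟨b, rfl⟩ := hs a
        rw [← map_mul, ← map_mul, Subgroup.mem_center_iff.mp hg b]
      rw [hK] at h1
      exact h1
    · intro hg
      rcases (hker g).1 hg with rfl | rfl
      · exact Subgroup.one_mem _
      · rw [Subgroup.mem_center_iff]
        exact htc
  have hmem : ∀ g, g ∈ Subgroup.center H ↔ g = 1 ∨ g = t := by
    intro g
    rw [hcen, MonoidHom.mem_ker, hker]
  refine ⟨?_, ⟨(QuotientGroup.quotientMulEquivOfEq hcen).trans (QuotientGroup.quotientKerEquivOfSurjective Θ hs)⟩, ?_⟩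
  · rw [Nat.card_eq_two_iff]
    refine ⟨⟨1, Subgroup.one_mem _⟩, ⟨t, (hmem t).2 (Or.inr rfl)⟩, ?_, ?_⟩
    · intro h
      exact ht (congrArg Subtype.val h).symm
    · ext ⟨g, hg⟩
      simp only [Set.mem_insert_iff, Set.mem_singleton_iff, Set.mem_univ, iff_true, Subtype.mk.injEq]
      exact (hmem g).1 hg
  · intro L hL
    rw [Subgroup.IsComplement', Subgroup.isComplement_iff_existsUnique] at hL
    obtain ⟨⟨c, l⟩, hcl, -⟩ := hL x
    have hcl' : (c : H) * (l : H) = x := hcl
    have hcc : (c : H) * (c : H) = 1 := by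
      rcases (hmem c).1 c.2 with h | h
      · rw [h, one_mul]
      · rw [h, htt]
    have hcz : (l : H) * (c : H) = (c : H) * (l : H) := Subgroup.mem_center_iff.mp c.2 l
    have hz : (l : H) * (l : H) = t := by
      rw [← hx, ← hcl']
      calc (l : H) * l = (c : H) * c * (l * l) := by rw [hcc, one_mul]
        _ = c * (c * l) * l := by group
        _ = c * (l * c) * l := by rw [hcz]
        _ = c * l * (c * l) := by group
    have htL : t ∈ L := hz ▸ L.mul_mem l.2 l.2
    obtain ⟨u, hu⟩ := hL t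
    have e1 := hu.2 (⟨t, (hmem t).2 (Or.inr rfl)⟩, 1) (by simp)
    have e2 := hu.2 (1, ⟨t, htL⟩) (by simp)
    have e3 := e1.trans e2.symm
    exact ht (congrArg (fun y => ((y.1 : Subgroup.center H) : H)) e3)

/-! ### The involution and the letters -/

/-- The involution. -/
noncomputable def τ : Pm := El [tauL]

theorem tau_lt : tauL < 35 := Yl_lt (by norm_num)

theorem τ_ok : okW [tauL] = true := okW_single tau_lt

theorem τ_mem : τ ∈ Pg := El_mem τ_ok

theorem τ_val (x : Fin 275) : (τ x).val = S tauL x.val := by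
  show (El [tauL] x).val = _
  rw [El_single, Lt_val tau_lt]

theorem τ_b1 : τ b1 = b1 := by
  apply Fin.ext
  rw [τ_val]
  show S tauL 141 = 141
  decide +kernel

theorem τ_b2 : τ b2 = b2 := by
  apply Fin.ext
  rw [τ_val]
  show S tauL 0 = 0
  decide +kernel

theorem τ_sq : τ * τ = 1 := by
  have h : agreeB ([tauL] ++ [tauL]) [] = true := by decide +kernel
  have h1 := El_eq_of_agree (okW_append τ_ok τ_ok) rfl h
  rw [El_append] at h1
  exact h1

theorem τ_ne : τ ≠ 1 := by
  intro h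
  have h1 := τ_val ⟨1, by norm_num⟩
  rw [h] at h1
  have h2 : S tauL 1 ≠ 1 := by decide +kernel
  exact h2 h1.symm

/-- The generators of the centralizer. -/
noncomputable def Dg (g : ℕ) : Pm := El (W g)

theorem W_okk {g : ℕ} (hg : g < 2) : okW (W g) = true := allB_spec _ _ _ (by norm_num) W_ok g hg

theorem Dg_memPg {g : ℕ} (hg : g < 2) : Dg g ∈ Pg := El_mem (W_okk hg)

theorem Dg_val {g : ℕ} (hg : g < 2) (x : Fin 275) : (Dg g x).val = Dv g x.val := by
  show (El (W g) x).val = _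
  rw [El_apply (W_okk hg)]
  exact (Nat.eq_of_beq_eq_true (allB_spec _ _ _ (by norm_num) (allB_spec _ _ _ (by norm_num) Dv_chk g hg) x.val x.2)).symm

theorem Dg_comm {g : ℕ} (hg : g < 2) : Dg g * τ = τ * Dg g := by
  have h := allB_spec _ _ _ (by norm_num) comm_chk g hg
  have h1 := El_eq_of_agree (w₁ := tauL :: W g) (w₂ := W g ++ [tauL])
    (okW_append (p := [tauL]) (q := W g) τ_ok (W_okk hg)) (okW_append (W_okk hg) τ_ok) h
  rw [El_append] at h1
  exact h1

/-- The values of words in the generators of the centralizer. -/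
noncomputable def Dw (w : List ℕ) : Pm := wval Dg w

/-- The words in the generators of the centralizer. -/
def okD (w : List ℕ) : Prop := w.all (fun l => Nat.ble (Nat.succ l) 2) = true

theorem okD_spec {w : List ℕ} (h : okD w) : ∀ l ∈ w, l < 2 := by
  intro l hl
  have := List.all_eq_true.mp h l hl
  exact Nat.le_of_ble_eq_true this

theorem Dw_apply {w : List ℕ} (hw : okD w) (x : Fin 275) : ((Dw w) x).val = walkF Dv w x.val := by
  induction w generalizing x with
  | nil => rfl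
  | cons a w ih =>
    have h1 : okD w := by
      unfold okD at *
      simp only [List.all_cons, Bool.and_eq_true] at hw
      exact hw.2
    have h2 : a < 2 := okD_spec hw a List.mem_cons_self
    have e : Dw (a :: w) = Dw w * Dg a := rfl
    rw [e, Equiv.Perm.mul_apply, ih h1, Dg_val h2]
    show _ = force (Dv a x.val) (walkF Dv w)
    rw [force_eq]

theorem Dw_append (p q : List ℕ) : Dw (p ++ q) = Dw q * Dw p := wval_append _ _ _

/-- The subgroup generated by the generators of the centralizer. -/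
noncomputable def D : Subgroup Pm := Subgroup.closure {Dg 0, Dg 1}

theorem Dg_mem {g : ℕ} (hg : g < 2) : Dg g ∈ D := by
  interval_cases g
  · exact Subgroup.subset_closure (Or.inl rfl)
  · exact Subgroup.subset_closure (Or.inr rfl)

theorem Dw_mem {w : List ℕ} (hw : okD w) : Dw w ∈ D :=
  wval_mem _ _ _ (fun l hl => Dg_mem (okD_spec hw l hl))

/-- The centralizer. -/
noncomputable def C₀ : Subgroup Pm := Pg ⊓ Subgroup.centralizer {τ}

theorem mem_C₀ {c : Pm} : c ∈ C₀ ↔ c ∈ Pg ∧ c * τ = τ * c := by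
  rw [C₀, Subgroup.mem_inf, Subgroup.mem_centralizer_iff]
  constructor
  · rintro ⟨h1, h2⟩
    exact ⟨h1, (h2 τ rfl).symm⟩
  · rintro ⟨h1, h2⟩
    refine ⟨h1, ?_⟩
    rintro _ rfl
    exact h2.symm

theorem D_le : D ≤ C₀ := by
  rw [D, Subgroup.closure_le]
  rintro _ (rfl | rfl)
  · exact mem_C₀.2 ⟨Dg_memPg (by norm_num), Dg_comm (by norm_num)⟩
  · exact mem_C₀.2 ⟨Dg_memPg (by norm_num), Dg_comm (by norm_num)⟩

theorem A_okk {i : ℕ} (hi : i < 35) : okD (Aw i) := allB_spec _ _ _ (by norm_num) A_ok i hi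
theorem B_okk {i : ℕ} (hi : i < 18) : okD (Bw i) := allB_spec _ _ _ (by norm_num) B_ok i hi
theorem H_okk {i : ℕ} (hi : i < 64) : okD (Hw i) := allB_spec _ _ _ (by norm_num) H_ok i hi

theorem fix_of_comm {d : Pm} (h : d * τ = τ * d) {p : Fin 275} (hp : τ p = p) : τ (d p) = d p := by
  have h1 := congrArg (fun f : Pm => f p) h
  simp only [Equiv.Perm.mul_apply, hp] at h1
  exact h1.symm

/-- The second level. -/
theorem level2 {h : Pm} (hh : h ∈ Pg) (h1 : h b1 = b1) : ∃ y, y < 162 ∧ (h b2).val = O2 y := by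
  obtain ⟨⟨x1, x2, x3, x4, x5⟩, rfl⟩ := exists_tuple hh
  simp only [fT] at h1 ⊢
  simp only [Equiv.Perm.mul_apply] at h1 ⊢
  rw [t5_f1 x5.2, t4_f1 x4.2, t3_f1 x3.2, t2_f1 x2.2] at h1
  have e1 : x1.val = 0 := zero_of_fix (t := t1) (O := O1) (E := E1) (L1 _ x1.2).2.2.1 (L1 _ x1.2).2.2.2.1
    (L1 0 (by norm_num)).2.2.2.1 O1_zero h1
  refine ⟨x2, x2.2, ?_⟩
  rw [t5_f2 x5.2, t4_f2 x4.2, t3_f2 x3.2, e1, t1_zero, Equiv.Perm.one_apply]
  exact (L2 _ x2.2).2.2.1

/-- The elements of the centralizer. -/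
theorem c_decomp {c : Pm} (hc : c ∈ Pg) (hcomm : c * τ = τ * c) :
    ∃ i j k, i < 35 ∧ j < 18 ∧ k < 64 ∧ c = Dw (Aw i) * (Dw (Bw j) * Dw (Hw k)) := by
  -- the first base point
  have hA := allB_spec _ _ _ (by norm_num) A_chk (c b1).val (c b1).2
  have hy : Nat.beq (S tauL (c b1).val) (c b1).val = true := by
    rw [← τ_val, fix_of_comm hcomm τ_b1]
    exact Nat.beq_refl _
  rw [hy] at hA
  simp only [Bool.not_true, Bool.false_or, Bool.and_eq_true] at hA
  obtain ⟨hA1, hA2⟩ := hA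
  have hi : Ai (c b1).val < 35 := Nat.le_of_ble_eq_true hA1
  set i := Ai (c b1).val with hidef
  set a := Dw (Aw i) with ha
  have haD : a ∈ D := Dw_mem (A_okk hi)
  have haC := mem_C₀.1 (D_le haD)
  have hab : a b1 = c b1 := by
    apply Fin.ext
    rw [ha, Dw_apply (A_okk hi)]
    exact Nat.eq_of_beq_eq_true hA2
  set c₁ := a⁻¹ * c with hc1
  have hc1Pg : c₁ ∈ Pg := Pg.mul_mem (Pg.inv_mem haC.1) hc
  have hc1c : c₁ * τ = τ * c₁ := by
    have e1 : a⁻¹ * τ = τ * a⁻¹ := by
      rw [inv_mul_eq_iff_eq_mul, ← mul_assoc, haC.2, mul_assoc, mul_inv_cancel, mul_one]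
    rw [hc1, mul_assoc, hcomm, ← mul_assoc, e1, mul_assoc]
  have hc1b : c₁ b1 = b1 := by
    rw [hc1, Equiv.Perm.mul_apply, ← hab, invApp]
  -- the second base point
  obtain ⟨y, hy1, hy2⟩ := level2 hc1Pg hc1b
  have hB := allB_spec _ _ _ (by norm_num) B_chk y hy1
  have hy3 : Nat.beq (S tauL (O2 y)) (O2 y) = true := by
    rw [← hy2, ← τ_val, fix_of_comm hc1c τ_b2]
    exact Nat.beq_refl _
  rw [hy3] at hB
  simp only [Bool.not_true, Bool.false_or, Bool.and_eq_true] at hB
  obtain ⟨hB1, hB2, hB3⟩ := hB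
  have hj : Bi y < 18 := Nat.le_of_ble_eq_true hB1
  set b := Dw (Bw (Bi y)) with hb
  have hbD : b ∈ D := Dw_mem (B_okk hj)
  have hbC := mem_C₀.1 (D_le hbD)
  have hb1 : b b1 = b1 := by
    apply Fin.ext
    rw [hb, Dw_apply (B_okk hj)]
    exact Nat.eq_of_beq_eq_true hB2
  have hb2 : b b2 = c₁ b2 := by
    apply Fin.ext
    rw [hb, Dw_apply (B_okk hj), hy2]
    exact Nat.eq_of_beq_eq_true hB3
  set c₂ := b⁻¹ * c₁ with hc2
  have hc2Pg : c₂ ∈ Pg := Pg.mul_mem (Pg.inv_mem hbC.1) hc1Pg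
  have hc2c : c₂ * τ = τ * c₂ := by
    have e1 : b⁻¹ * τ = τ * b⁻¹ := by
      rw [inv_mul_eq_iff_eq_mul, ← mul_assoc, hbC.2, mul_assoc, mul_inv_cancel, mul_one]
    rw [hc2, mul_assoc, hc1c, ← mul_assoc, e1, mul_assoc]
  have hc21 : c₂ b1 = b1 := by
    rw [hc2, Equiv.Perm.mul_apply, hc1b, Equiv.Perm.inv_eq_iff_eq, hb1]
  have hc22 : c₂ b2 = b2 := by
    rw [hc2, Equiv.Perm.mul_apply, ← hb2, invApp]
  -- the stabilizer of two points
  obtain ⟨x3, x4, x5, i3, i4, i5, hxe⟩ := stab2 hc2Pg hc21 hc22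
  have d1 : Nat.div (x3 * 192 + x4 * 3 + x5) 192 = x3 := by
    show (x3 * 192 + x4 * 3 + x5) / 192 = x3
    omega
  have d2 : Nat.mod (Nat.div (x3 * 192 + x4 * 3 + x5) 3) 64 = x4 := by
    show (x3 * 192 + x4 * 3 + x5) / 3 % 64 = x4
    omega
  have d3 : Nat.mod (x3 * 192 + x4 * 3 + x5) 3 = x5 := by
    show (x3 * 192 + x4 * 3 + x5) % 3 = x5
    omega
  set m := x3 * 192 + x4 * 3 + x5 with hm
  have hval : ∀ p : Fin 275, (c₂ p).val = hV m p.val := by
    intro p
    simp only [hV, d1, d2, d3]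
    rw [hxe]
    simp only [Equiv.Perm.mul_apply]
    rw [t3_val i3, t4_val i4, t5_val i5]
  have hT := allB_spec _ _ _ (by norm_num) tl_chk m (by omega)
  have htest : ∀ q : Fin 275, cmT m q.val = false := by
    intro q
    have h1 : (c₂ (τ q)).val = (τ (c₂ q)).val := by
      have := congrArg (fun f : Pm => (f q).val) hc2c
      simpa only [Equiv.Perm.mul_apply] using this
    rw [hval, τ_val, τ_val, hval] at h1
    simp only [cmT, h1, Nat.beq_refl, Bool.not_true]
  simp only [Ptl, Bool.or_eq_true, Bool.and_eq_true] at hT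
  rcases hT with h | h | h | ⟨h, hall⟩
  · rw [htest ⟨1, by norm_num⟩] at h
    exact absurd h (by simp)
  · rw [htest ⟨2, by norm_num⟩] at h
    exact absurd h (by simp)
  · rw [htest ⟨3, by norm_num⟩] at h
    exact absurd h (by simp)
  have hk : Hi m < 64 := Nat.le_of_ble_eq_true h
  have hbase : ∀ q : Fin 275, q.val ∈ [141, 0, 1, 2, 3] → (Dw (Hw (Hi m))) q = c₂ q := by
    intro q hq
    apply Fin.ext
    rw [Dw_apply (H_okk hk), hval]
    exact Nat.eq_of_beq_eq_true (List.all_eq_true.mp hall _ hq)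
  have hc2e : c₂ = Dw (Hw (Hi m)) := by
    refine eq_of_base hc2Pg (mem_C₀.1 (D_le (Dw_mem (H_okk hk)))).1 ?_ ?_ ?_ ?_ ?_
    · exact (hbase _ (by simp [b1])).symm
    · exact (hbase _ (by simp [b2])).symm
    · exact (hbase _ (by simp [b3])).symm
    · exact (hbase _ (by simp [b4])).symm
    · exact (hbase _ (by simp [b5])).symm
  refine ⟨i, Bi y, Hi m, hi, hj, hk, ?_⟩
  rw [← hc2e]
  show c = a * (b * c₂)
  rw [hc2, hc1]
  group

theorem C₀_le_D : C₀ ≤ D := by
  intro c hc
  obtain ⟨h1, h2⟩ := mem_C₀.1 hc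
  obtain ⟨i, j, k, hi, hj, hk, rfl⟩ := c_decomp h1 h2
  exact D.mul_mem (Dw_mem (A_okk hi)) (D.mul_mem (Dw_mem (B_okk hj)) (Dw_mem (H_okk hk)))

theorem card_D_le : Nat.card D ≤ 40320 := by
  let F : Fin 35 × Fin 18 × Fin 64 → Pm := fun x => Dw (Aw x.1) * (Dw (Bw x.2.1) * Dw (Hw x.2.2))
  have hsub : (D : Set Pm) ⊆ Set.range F := by
    intro c hc
    obtain ⟨h1, h2⟩ := mem_C₀.1 (D_le hc)
    obtain ⟨i, j, k, hi, hj, hk, rfl⟩ := c_decomp h1 h2
    exact ⟨(⟨i, hi⟩, ⟨j, hj⟩, ⟨k, hk⟩), rfl⟩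
  have h1 : Nat.card D = (D : Set Pm).ncard := (Nat.card_coe_set_eq _).symm
  rw [h1]
  calc (D : Set Pm).ncard ≤ (Set.range F).ncard := Set.ncard_le_ncard hsub (Set.finite_range F)
    _ = (F '' Set.univ).ncard := by rw [Set.image_univ]
    _ ≤ (Set.univ : Set (Fin 35 × Fin 18 × Fin 64)).ncard := Set.ncard_image_le Set.finite_univ
    _ = 40320 := by
      rw [Set.ncard_univ]
      simp

/-! ### The action on the labels -/

/-- The four by four matrices. -/
abbrev M4 := Matrix (Fin 4) (Fin 4) (ZMod 2)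
/-- The general linear group. -/
abbrev GL4 := Matrix.GeneralLinearGroup (Fin 4) (ZMod 2)

/-- The action of a permutation on the labels is given by a matrix. -/
def Rel (c : Pm) (M : M4) : Prop := ∀ p : Fin 275, vec (lab (c p).val) = Matrix.mulVec M (vec (lab p.val))

theorem rel_one : Rel 1 1 := fun p => by
  rw [Matrix.one_mulVec]
  rfl

theorem rel_mul {c d : Pm} {M N : M4} (h1 : Rel c M) (h2 : Rel d N) : Rel (c * d) (M * N) := fun p => by
  rw [Equiv.Perm.mul_apply, h1, h2, Matrix.mulVec_mulVec]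

theorem rel_inv {c : Pm} {M N : M4} (h1 : Rel c M) (h2 : N * M = 1) : Rel c⁻¹ N := fun p => by
  have h3 := h1 (c⁻¹ p)
  rw [appInv] at h3
  rw [h3, Matrix.mulVec_mulVec, h2, Matrix.one_mulVec]

theorem rel_unique {c : Pm} {M N : M4} (h1 : Rel c M) (h2 : Rel c N) : M = N := by
  ext i j
  obtain ⟨hp, hl⟩ := lab_basis j
  have h3 := (h1 ⟨_, hp⟩).symm.trans (h2 ⟨_, hp⟩)
  show M i j = N i j
  simp only [hl, vec_single, Matrix.mulVec_single_one] at h3
  exact congrFun h3 i

/-- The matrices of the generators. -/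
def gM : ℕ → GL4
  | 0 => ⟨M0, Mi0, M_chk.1, M_chk.2.1⟩
  | _ => ⟨M1, Mi1, M_chk.2.2.1, M_chk.2.2.2⟩

theorem lab_lt (p : ℕ) : lab p < 16 := by
  show Nat.land _ 15 < 16
  exact Nat.and_lt_two_pow (n := 4) _ (by norm_num)

theorem Dg_rel {g : ℕ} (hg : g < 2) : Rel (Dg g) (gM g : GL4) := by
  intro p
  rw [Dg_val hg]
  have h := Nat.eq_of_beq_eq_true (allB_spec _ _ _ (by norm_num) (allB_spec _ _ _ (by norm_num) lab_chk g hg) p.val p.2)
  rw [h]
  have hv := M_vec ⟨lab p.val, lab_lt _⟩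
  interval_cases g
  · exact hv.1
  · exact hv.2

theorem ex_rel {c : Pm} (hc : c ∈ D) : ∃ M : GL4, Rel c (M : M4) := by
  induction hc using Subgroup.closure_induction with
  | mem x hx =>
    rcases hx with rfl | rfl
    · exact ⟨gM 0, Dg_rel (by norm_num)⟩
    · exact ⟨gM 1, Dg_rel (by norm_num)⟩
  | one => exact ⟨1, rel_one⟩
  | mul x y _ _ hx hy =>
    obtain ⟨M, hM⟩ := hx
    obtain ⟨N, hN⟩ := hy
    exact ⟨M * N, rel_mul hM hN⟩
  | inv x _ hx =>
    obtain ⟨M, hM⟩ := hx
    exact ⟨M⁻¹, rel_inv hM (by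
      show ((M⁻¹ * M : GL4) : M4) = 1
      rw [inv_mul_cancel]
      rfl)⟩

/-- The homomorphism to the general linear group. -/
noncomputable def ρ : ↥D →* GL4 :=
  MonoidHom.mk' (fun c => (ex_rel c.2).choose) (fun a b => by
    apply Units.ext
    exact rel_unique (ex_rel (a * b).2).choose_spec (rel_mul (ex_rel a.2).choose_spec (ex_rel b.2).choose_spec))

theorem ρ_spec (c : ↥D) : Rel (c : Pm) (ρ c : GL4) := (ex_rel c.2).choose_spec

theorem ρ_eq {c : ↥D} {M : GL4} (h : Rel (c : Pm) (M : M4)) : ρ c = M :=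
  Units.ext (rel_unique (ρ_spec c) h)

theorem tv_rel {i j : Fin 4} (hij : i ≠ j) : ∃ c ∈ D, Rel c (Matrix.transvection i j 1) := by
  have hok : okD (tvw i.val j.val) := tv_ok i j
  refine ⟨Dw (tvw i j), Dw_mem hok, fun p => ?_⟩
  rw [Dw_apply hok]
  have h1 := allB_spec _ _ _ (by norm_num) (allB_spec _ _ _ (by norm_num) tv_chk i i.2) j j.2
  have h2 : Nat.beq i.val j.val = false := by
    rw [Bool.eq_false_iff]
    intro h3
    exact hij (Fin.ext (Nat.eq_of_beq_eq_true h3))
  rw [h2, Bool.false_or] at h1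
  have h3 := Nat.eq_of_beq_eq_true (allB_spec _ _ _ (by norm_num) h1 p.val p.2)
  rw [h3]
  exact tv_vec i j hij ⟨lab p.val, lab_lt _⟩

theorem ex_elt (M : M4) (hM : M.det ≠ 0) : ∃ c ∈ D, Rel c M := by
  refine Matrix.diagonal_transvection_induction_of_det_ne_zero (fun M => ∃ c ∈ D, Rel c M) M hM ?_ ?_ ?_
  · intro E hE
    refine ⟨1, D.one_mem, ?_⟩
    have hE1 : ∀ i, E i = 1 := by
      intro i
      have h1 : E i ≠ 0 := by
        intro h0
        apply hE
        rw [Matrix.det_diagonal]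
        exact Finset.prod_eq_zero (Finset.mem_univ i) h0
      generalize E i = x at h1
      revert x
      decide
    have : Matrix.diagonal E = 1 := by
      ext i j
      by_cases h : i = j
      · subst h
        simp [hE1]
      · simp [h]
    rw [this]
    exact rel_one
  · intro t
    rcases t with ⟨i, j, hij, c⟩
    show ∃ x ∈ D, Rel x (Matrix.transvection i j c)
    have hc : c = 0 ∨ c = 1 := by
      revert c
      decide
    rcases hc with rfl | rfl
    · refine ⟨1, D.one_mem, ?_⟩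
      rw [Matrix.transvection_zero]
      exact rel_one
    · exact tv_rel hij
  · rintro A B _ _ ⟨c, hc, hA⟩ ⟨d, hd, hB⟩
    exact ⟨c * d, D.mul_mem hc hd, rel_mul hA hB⟩

theorem ρ_surj : Function.Surjective ρ := by
  intro M
  have hdet : (M : M4).det ≠ 0 := (Matrix.isUnits_det_units M).ne_zero
  obtain ⟨c, hc, h⟩ := ex_elt _ hdet
  exact ⟨⟨c, hc⟩, ρ_eq h⟩

theorem τ_memD : τ ∈ D := by
  have hok : okD tauW := tauW_ok
  have h : τ = Dw tauW := by
    have hall := List.all_eq_true.mp tau_chk'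
    have hb : ∀ q : Fin 275, q.val ∈ [141, 0, 1, 2, 3] → τ q = (Dw tauW) q := by
      intro q hq
      apply Fin.ext
      rw [Dw_apply hok, τ_val]
      exact (Nat.eq_of_beq_eq_true (hall _ hq)).symm
    refine eq_of_base τ_mem (mem_C₀.1 (D_le (Dw_mem hok))).1 ?_ ?_ ?_ ?_ ?_
    · exact hb _ (by simp [b1])
    · exact hb _ (by simp [b2])
    · exact hb _ (by simp [b3])
    · exact hb _ (by simp [b4])
    · exact hb _ (by simp [b5])
  rw [h]
  exact Dw_mem hok

/-- The involution in the subgroup. -/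
noncomputable def τD : ↥D := ⟨τ, τ_memD⟩

theorem ρ_τ : ρ τD = 1 := by
  apply ρ_eq
  intro p
  show vec (lab (τ p).val) = Matrix.mulVec ((1 : GL4) : M4) _
  rw [τ_val, Nat.eq_of_beq_eq_true (allB_spec _ _ _ (by norm_num) lab_tau_chk p.val p.2)]
  show _ = Matrix.mulVec (1 : M4) _
  rw [Matrix.one_mulVec]

theorem τD_ne : τD ≠ 1 := fun h => τ_ne (congrArg Subtype.val h)

theorem card_GL4 : Nat.card GL4 = 20160 := by
  rw [Matrix.card_GL_field]
  simp only [ZMod.card, Fin.prod_univ_four]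
  norm_num

theorem ker_ρ (c : ↥D) : ρ c = 1 ↔ c = 1 ∨ c = τD := by
  classical
  constructor
  · intro hc
    by_contra hcon
    push Not at hcon
    have h0 : Nat.card D = Nat.card (↥D ⧸ ρ.ker) * Nat.card ρ.ker :=
      Subgroup.card_eq_card_quotient_mul_card_subgroup _
    rw [Nat.card_congr (QuotientGroup.quotientKerEquivOfSurjective ρ ρ_surj).toEquiv, card_GL4] at h0
    have h1 := card_D_le
    have h2 : Nat.card ρ.ker ≤ 2 := by omega
    have h3 : ((({1, τD, c} : Finset ↥D)) : Set ↥D) ⊆ (ρ.ker : Set ↥D) := by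
      intro y hy
      simp only [Finset.coe_insert, Finset.coe_singleton, Set.mem_insert_iff, Set.mem_singleton_iff] at hy
      rcases hy with rfl | rfl | rfl
      · exact ρ.ker.one_mem
      · exact ρ_τ
      · exact hc
    haveI : Finite ↥D := Subtype.finite
    have h4 : ({1, τD, c} : Finset ↥D).card = 3 := by
      rw [Finset.card_eq_three]
      exact ⟨1, τD, c, τD_ne.symm, hcon.1.symm, hcon.2.symm, rfl⟩
    have h5 := Set.ncard_le_ncard h3 (Set.toFinite _)
    rw [Set.ncard_coe_finset, h4, ← Nat.card_coe_set_eq] at h5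
    have h6 : 3 ≤ Nat.card ρ.ker := h5
    omega
  · rintro (rfl | rfl)
    · exact map_one _
    · exact ρ_τ

/-! ### The element squaring to the involution -/

/-- The element squaring to the involution. -/
noncomputable def xD : ↥D := ⟨Dw xW, Dw_mem x_ok⟩

theorem xD_sq : xD * xD = τD := by
  apply Subtype.ext
  show Dw xW * Dw xW = τ
  rw [← Dw_append]
  have hok : okD (xW ++ xW) := by
    unfold okD at *
    rw [List.all_append, x_ok]
    rfl
  have hall := List.all_eq_true.mp x_chk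
  have hb : ∀ q : Fin 275, q.val ∈ [141, 0, 1, 2, 3] → (Dw (xW ++ xW)) q = τ q := by
    intro q hq
    apply Fin.ext
    rw [Dw_apply hok, τ_val]
    exact Nat.eq_of_beq_eq_true (hall _ hq)
  refine eq_of_base (mem_C₀.1 (D_le (Dw_mem hok))).1 τ_mem ?_ ?_ ?_ ?_ ?_
  · exact hb _ (by simp [b1])
  · exact hb _ (by simp [b2])
  · exact hb _ (by simp [b3])
  · exact hb _ (by simp [b4])
  · exact hb _ (by simp [b5])

theorem card_A8 : Nat.card (alternatingGroup (Fin 8)) = 20160 := by
  have h := two_mul_nat_card_alternatingGroup (α := Fin 8)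
  rw [Nat.card_eq_fintype_card (α := Equiv.Perm (Fin 8)), Fintype.card_perm, Fintype.card_fin] at h
  have h2 : Nat.factorial 8 = 40320 := by decide
  omega

/-! ### The involutions -/

theorem Cw_okk {e : ℕ} (he : e < 128) : okW (Cw e) = true := allB_spec _ _ _ (by norm_num) Cw_ok e he

theorem agreeB_of_eq {w₁ w₂ : List ℕ} (h₁ : okW w₁ = true) (h₂ : okW w₂ = true) (h : El w₁ = El w₂) :
    agreeB w₁ w₂ = true := by
  have key : ∀ x : Fin 275, agree w₁ w₂ x.val = true := by
    intro x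
    unfold agree
    rw [← El_apply h₁, ← El_apply h₂, h]
    exact Nat.beq_refl _
  simp only [agreeB, Bool.and_eq_true]
  exact ⟨key b1, key b2, key b3, key b4, key b5⟩

theorem invol_to_tau {u : Pm} (hu : u ∈ Pg) (h2 : u * u = 1) (h1 : u ≠ 1) : ∃ g ∈ Pg, g * u * g⁻¹ = τ := by
  haveI : Fact (Nat.Prime 2) := ⟨Nat.prime_two⟩
  have hc : Nat.card (S₀.subgroupOf Pg) = 2 ^ 7 := by
    rw [Nat.card_congr (Subgroup.subgroupOfEquivOfLe S_le_Pg).toEquiv, card_S]
  have hG : Nat.card ↥Pg = 2 ^ 7 * 7016625 := by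
    rw [card_Pg]
    norm_num
  obtain ⟨g, hg⟩ := Cfsg.Agent.Lib.OutCrit.exists_conj_mem (S₀.subgroupOf Pg) hc hG (by norm_num)
    (t := (⟨u, hu⟩ : ↥Pg)) (e := 1) (by
      apply Subtype.ext
      show u ^ 2 ^ 1 = 1
      rw [pow_one, pow_two, h2])
  have hg' : (g : Pm) * u * (g : Pm)⁻¹ ∈ S₀ := by
    rw [Subgroup.mem_subgroupOf] at hg
    exact hg
  obtain ⟨e, he, hs⟩ := S_eq hg'
  have hsq : El (nfW e) * El (nfW e) = 1 := by
    rw [← hs]
    calc (g : Pm) * u * (g : Pm)⁻¹ * ((g : Pm) * u * (g : Pm)⁻¹) = (g : Pm) * (u * u) * (g : Pm)⁻¹ := by group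
      _ = 1 := by rw [h2]; group
  have hok := ok_nf e
  have hag : agreeB (nfW e ++ nfW e) [] = true :=
    agreeB_of_eq (okW_append hok hok) rfl (by rw [El_append, hsq]; rfl)
  have hchk := allB_spec _ _ _ (by norm_num) inv_chk e he
  simp only [Bool.or_eq_true, hag, Bool.not_true, Bool.false_eq_true, false_or] at hchk
  rcases hchk with h0 | h3
  · exfalso
    have h4 : e = 0 := Nat.eq_of_beq_eq_true h0
    rw [h4, nfW_zero, El_nil] at hs
    apply h1
    have h5 : u = (g : Pm)⁻¹ * ((g : Pm) * u * (g : Pm)⁻¹) * (g : Pm) := by group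
    rw [h5, hs]
    group
  · have h4 := El_eq_of_agree (w₁ := Cw e ++ nfW e) (w₂ := tauL :: Cw e)
      (okW_append (Cw_okk he) hok) (okW_append (p := [tauL]) (q := Cw e) τ_ok (Cw_okk he)) h3
    rw [El_append] at h4
    have h5 : El (tauL :: Cw e) = El (Cw e) * τ := rfl
    rw [h5] at h4
    refine ⟨(El (Cw e))⁻¹ * (g : Pm), Pg.mul_mem (Pg.inv_mem (El_mem (Cw_okk he))) g.2, ?_⟩
    have h6 : (El (Cw e))⁻¹ * (g : Pm) * u * ((El (Cw e))⁻¹ * (g : Pm))⁻¹ =
        (El (Cw e))⁻¹ * ((g : Pm) * u * (g : Pm)⁻¹) * El (Cw e) := by group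
    rw [h6, hs, mul_assoc, h4, ← mul_assoc, inv_mul_cancel, one_mul]

/-! ### The main theorem -/

theorem main : (∀ x y : ↥Cfsg.Spor.McL, orderOf x = 2 → orderOf y = 2 → IsConj x y) ∧
    ∃ t : ↥Cfsg.Spor.McL, orderOf t = 2 ∧
      Cfsg.IsNonsplitDoubleCover ↥(Subgroup.centralizer ({t} : Set ↥Cfsg.Spor.McL)) ↥(alternatingGroup (Fin 8)) := by
  obtain ⟨e⟩ := equiv_of_card card_lb
  set τ' : ↥Pg := ⟨τ, τ_mem⟩ with hτ'
  set t : ↥Cfsg.Spor.McL := e.symm τ' with ht
  have ht1 : t ≠ 1 := by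
    intro h
    have h1 : τ' = 1 := by
      have := congrArg e h
      simpa [ht] using this
    exact τ_ne (congrArg Subtype.val h1)
  have ht2 : t ^ 2 = 1 := by
    apply e.injective
    rw [map_pow, ht, MulEquiv.apply_symm_apply, map_one]
    apply Subtype.ext
    show τ ^ 2 = 1
    rw [pow_two, τ_sq]
  have hto : orderOf t = 2 := orderOf_eq_prime ht2 ht1
  have hconj : ∀ x : ↥Cfsg.Spor.McL, orderOf x = 2 → IsConj x t := by
    intro x hx
    have h2 : x ^ 2 = 1 := by
      rw [← hx]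
      exact pow_orderOf_eq_one x
    have h1 : x ≠ 1 := by
      rintro rfl
      rw [orderOf_one] at hx
      exact absurd hx (by norm_num)
    have h3 : ((e x : ↥Pg) : Pm) * ((e x : ↥Pg) : Pm) = 1 := by
      have := congrArg (fun y => ((e y : ↥Pg) : Pm)) h2
      simpa [pow_two] using this
    have h4 : ((e x : ↥Pg) : Pm) ≠ 1 := by
      intro h
      apply h1
      apply e.injective
      rw [map_one]
      exact Subtype.ext h
    obtain ⟨g, hg, hgx⟩ := invol_to_tau (e x).2 h3 h4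
    rw [isConj_iff]
    refine ⟨e.symm ⟨g, hg⟩, ?_⟩
    apply e.injective
    apply Subtype.ext
    simp only [map_mul, map_inv, MulEquiv.apply_symm_apply, ht]
    exact hgx
  refine ⟨fun x y hx hy => (hconj x hx).trans (hconj y hy).symm, t, hto, ?_⟩
  -- the map to the subgroup
  have hmemC : ∀ c : ↥(Subgroup.centralizer ({t} : Set ↥Cfsg.Spor.McL)), ((e c : ↥Pg) : Pm) ∈ D := by
    intro c
    apply C₀_le_D
    rw [mem_C₀]
    refine ⟨(e c).2, ?_⟩
    have h1 := Subgroup.mem_centralizer_iff.mp c.2 t rfl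
    have h2 := congrArg (fun y => ((e y : ↥Pg) : Pm)) h1
    simp only [map_mul, ht, MulEquiv.apply_symm_apply] at h2
    exact h2.symm
  let ψ : ↥(Subgroup.centralizer ({t} : Set ↥Cfsg.Spor.McL)) →* ↥D :=
    { toFun := fun c => ⟨(e c : ↥Pg), hmemC c⟩
      map_one' := by
        apply Subtype.ext
        show ((e 1 : ↥Pg) : Pm) = 1
        rw [map_one]
        rfl
      map_mul' := fun a b => by
        apply Subtype.ext
        show ((e ((a : ↥Cfsg.Spor.McL) * b) : ↥Pg) : Pm) = ((e a : ↥Pg) : Pm) * ((e b : ↥Pg) : Pm)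
        rw [map_mul]
        rfl }
  have hψv : ∀ c, ((ψ c : ↥D) : Pm) = ((e c : ↥Pg) : Pm) := fun _ => rfl
  have hψinj : Function.Injective ψ := by
    intro a b hab
    apply Subtype.ext
    apply e.injective
    apply Subtype.ext
    exact congrArg (fun z : ↥D => (z : Pm)) hab
  have hliftmem : ∀ d : ↥D, e.symm ⟨d, (mem_C₀.1 (D_le d.2)).1⟩ ∈ Subgroup.centralizer ({t} : Set ↥Cfsg.Spor.McL) := by
    intro d
    rw [Subgroup.mem_centralizer_iff]
    intro y hy
    have hy' : y = t := hy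
    rw [hy']
    apply e.injective
    apply Subtype.ext
    simp only [map_mul, ht, MulEquiv.apply_symm_apply]
    exact (mem_C₀.1 (D_le d.2)).2.symm
  have hψsurj : Function.Surjective ψ := by
    intro d
    refine ⟨⟨_, hliftmem d⟩, ?_⟩
    apply Subtype.ext
    rw [hψv]
    simp
  obtain ⟨f, hf⟩ := Cfsg.Agent.Lib.GL42A8.exists_embedding
  have hfb : Function.Bijective f := (Nat.bijective_iff_injective_and_card f).2 ⟨hf, by rw [card_GL4, card_A8]⟩
  let Θ := f.comp (ρ.comp ψ)
  have hΘs : Function.Surjective Θ := hfb.2.comp (ρ_surj.comp hψsurj)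
  let t' : ↥(Subgroup.centralizer ({t} : Set ↥Cfsg.Spor.McL)) := ⟨t, Subgroup.mem_centralizer_iff.2 (fun y hy => by
    have hy' : y = t := hy
    rw [hy'])⟩
  have hψt : ψ t' = τD := by
    apply Subtype.ext
    rw [hψv]
    show ((e (e.symm τ') : ↥Pg) : Pm) = τ
    rw [MulEquiv.apply_symm_apply]
  have hker : ∀ c, Θ c = 1 ↔ c = 1 ∨ c = t' := by
    intro c
    have h1 : Θ c = 1 ↔ ρ (ψ c) = 1 := by
      show f (ρ (ψ c)) = 1 ↔ _
      rw [← map_one f]
      exact hfb.1.eq_iff
    rw [h1, ker_ρ]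
    constructor
    · rintro (h | h)
      · left
        apply hψinj
        rw [h, map_one]
      · right
        apply hψinj
        rw [h, hψt]
    · rintro (rfl | rfl)
      · left
        exact map_one _
      · right
        exact hψt
  obtain ⟨x, hx⟩ := hψsurj xD
  refine ndc_of_hom (alternatingGroup.center_eq_bot (by simp)) Θ hΘs t' ?_ hker ?_ x ?_
  · intro h
    exact ht1 (congrArg Subtype.val h)
  · intro c
    apply Subtype.ext
    exact (Subgroup.mem_centralizer_iff.mp c.2 t rfl).symm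
  · apply hψinj
    rw [map_mul, hx, xD_sq, hψt]

end Cfsg.Agent.Lib.McLCent
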