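import Mathlib

/-!
# Groups generated by transvections over a prime field: basic calculus

`IsTv K v φ` records that the group `K` of linear automorphisms contains the transvection
`x ↦ x + φ x • v` (with `φ v = 0`).
-/

set_option autoImplicit false

namespace Cfsg.Agent.Lib.McLH39

open Module

variable {p : ℕ} [Fact p.Prime] {V : Type*} [AddCommGroup V] [Module (ZMod p) V]

/-- `K` contains the transvection `x ↦ x + φ x • v`. -/
def IsTv (K : Subgroup (V ≃ₗ[ZMod p] V)) (v : V) (φ : Dual (ZMod p) V) : Prop :=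
  φ v = 0 ∧ ∃ g ∈ K, ∀ x, g x = x + φ x • v

variable {K : Subgroup (V ≃ₗ[ZMod p] V)} {v w : V} {φ ψ : Dual (ZMod p) V}

theorem tv_pow {g : V ≃ₗ[ZMod p] V} (h0 : φ v = 0) (hg : ∀ x, g x = x + φ x • v) (k : ℕ) (x : V) :
    (g ^ k) x = x + ((k : ZMod p) * φ x) • v := by
  induction k with
  | zero => simp
  | succ k ih =>
    rw [pow_succ', LinearEquiv.mul_apply, ih, hg]
    simp only [map_add, map_smul, h0, smul_eq_mul, mul_zero, add_zero, Nat.cast_add, Nat.cast_one]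
    module

theorem IsTv.zero_right (K : Subgroup (V ≃ₗ[ZMod p] V)) (v : V) : IsTv K v 0 :=
  ⟨rfl, 1, K.one_mem, by simp⟩

theorem IsTv.zero_left (K : Subgroup (V ≃ₗ[ZMod p] V)) (φ : Dual (ZMod p) V) : IsTv K 0 φ :=
  ⟨map_zero _, 1, K.one_mem, by simp⟩

theorem IsTv.smul_left (h : IsTv K v φ) (c : ZMod p) : IsTv K (c • v) φ := by
  obtain ⟨h0, g, hgK, hg⟩ := h
  refine ⟨by simp [h0], g ^ c.val, K.pow_mem hgK _, fun x => ?_⟩
  rw [tv_pow h0 hg, ZMod.natCast_zmod_val]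
  module

theorem IsTv.smul_right (h : IsTv K v φ) (c : ZMod p) : IsTv K v (c • φ) := by
  obtain ⟨h0, g, hgK, hg⟩ := h
  refine ⟨by simp [h0], g ^ c.val, K.pow_mem hgK _, fun x => ?_⟩
  rw [tv_pow h0 hg, ZMod.natCast_zmod_val]
  simp

theorem IsTv.add_right (h : IsTv K v φ) (h' : IsTv K v ψ) : IsTv K v (φ + ψ) := by
  obtain ⟨h0, g, hgK, hg⟩ := h
  obtain ⟨h0', g', hgK', hg'⟩ := h'
  refine ⟨by simp [h0, h0'], g * g', K.mul_mem hgK hgK', fun x => ?_⟩
  rw [LinearEquiv.mul_apply, hg', hg]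
  simp only [map_add, map_smul, h0, smul_eq_mul, mul_zero, add_zero, LinearMap.add_apply]
  module

theorem IsTv.add_left (h : IsTv K v φ) (h' : IsTv K w φ) : IsTv K (v + w) φ := by
  obtain ⟨h0, g, hgK, hg⟩ := h
  obtain ⟨h0', g', hgK', hg'⟩ := h'
  refine ⟨by simp [h0, h0'], g * g', K.mul_mem hgK hgK', fun x => ?_⟩
  rw [LinearEquiv.mul_apply, hg', hg]
  simp only [map_add, map_smul, h0', smul_eq_mul, mul_zero, add_zero]
  module

theorem IsTv.neg_right (h : IsTv K v φ) : IsTv K v (-φ) := by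
  have := h.smul_right (-1)
  have h2 : (-φ) = (-1 : ZMod p) • φ := by ext; simp
  rwa [h2]

theorem IsTv.neg_left (h : IsTv K v φ) : IsTv K (-v) φ := by
  have := h.smul_left (-1)
  rwa [neg_smul, one_smul] at this

theorem IsTv.sub_right (h : IsTv K v φ) (h' : IsTv K v ψ) : IsTv K v (φ - ψ) := by
  simpa [sub_eq_add_neg] using h.add_right h'.neg_right

theorem IsTv.sub_left (h : IsTv K v φ) (h' : IsTv K w φ) : IsTv K (v - w) φ := by
  simpa [sub_eq_add_neg] using h.add_left h'.neg_left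

/-- Cancel a nonzero scalar on the form. -/
theorem IsTv.of_smul_right {c : ZMod p} (hc : c ≠ 0) (h : IsTv K v (c • φ)) : IsTv K v φ := by
  have := h.smul_right c⁻¹
  rwa [smul_smul, inv_mul_cancel₀ hc, one_smul] at this

/-- Cancel a nonzero scalar on the vector. -/
theorem IsTv.of_smul_left {c : ZMod p} (hc : c ≠ 0) (h : IsTv K (c • v) φ) : IsTv K v φ := by
  have := h.smul_left c⁻¹
  rwa [smul_smul, inv_mul_cancel₀ hc, one_smul] at this

/-- Conjugating by a member of `K`. -/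
theorem IsTv.conj (h : IsTv K v φ) {g : V ≃ₗ[ZMod p] V} (hg : g ∈ K) :
    IsTv K (g v) (φ.comp (g.symm : V →ₗ[ZMod p] V)) := by
  obtain ⟨h0, t, htK, ht⟩ := h
  refine ⟨by simp [h0], g * t * g⁻¹, K.mul_mem (K.mul_mem hg htK) (K.inv_mem hg), fun x => ?_⟩
  have h1 : g⁻¹ x = g.symm x := rfl
  rw [LinearEquiv.mul_apply, LinearEquiv.mul_apply, ht, h1]
  simp

/-- The transvection `τ(w, ψ)` transports `τ(v, φ)`. -/
theorem IsTv.conj_tv (h : IsTv K v φ) (h' : IsTv K w ψ) : IsTv K (v + ψ v • w) (φ - φ w • ψ) := by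
  obtain ⟨h0', g, hgK, hg⟩ := id h'
  have h1 : ∀ x, g.symm x = x - ψ x • w := by
    intro x
    rw [LinearEquiv.symm_apply_eq, hg]
    simp [h0']
  have h2 := h.conj hgK
  rw [hg] at h2
  convert h2 using 1
  ext x
  simp [h1]
  ring

/-- If `τ(v,φ), τ(w,ψ)` with `ψ v = 0`, `φ w ≠ 0`, then `τ(v,ψ)`. -/
theorem IsTv.R3 (h : IsTv K v φ) (h' : IsTv K w ψ) (h0 : ψ v = 0) (h1 : φ w ≠ 0) : IsTv K v ψ := by
  have h2 := h.conj_tv h'
  rw [h0, zero_smul, add_zero] at h2
  have h3 := h.sub_right h2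
  rw [sub_sub_cancel] at h3
  exact h3.of_smul_right h1

/-- A flag fixed by `τ(w,ψ)` -/
theorem IsTv.R3' (h : IsTv K v φ) (h' : IsTv K w ψ) (h0 : ψ v = 0) : IsTv K v (φ w • ψ) := by
  have h2 := h.conj_tv h'
  rw [h0, zero_smul, add_zero] at h2
  have h3 := h.sub_right h2
  rwa [sub_sub_cancel] at h3

/-- Commuting criterion. -/
theorem tv_comm_of {g g' : V ≃ₗ[ZMod p] V} (hg : ∀ x, g x = x + φ x • v)
    (hg' : ∀ x, g' x = x + ψ x • w) (h1 : φ w = 0) (h2 : ψ v = 0) : g * g' = g' * g := by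
  ext x
  simp only [LinearEquiv.mul_apply, hg, hg', map_add, map_smul, h1, h2, smul_eq_mul, mul_zero, add_zero]
  abel

/-- Non-commuting transvections have a non-vanishing pairing. -/
theorem tv_pairing_of_not_comm {g g' : V ≃ₗ[ZMod p] V} (hg : ∀ x, g x = x + φ x • v)
    (hg' : ∀ x, g' x = x + ψ x • w) (h : g * g' ≠ g' * g) : φ w ≠ 0 ∨ ψ v ≠ 0 := by
  by_contra hc
  push Not at hc
  exact h (tv_comm_of hg hg' hc.1 hc.2)

/-- From commuting transvections to vanishing pairings (needs `v ≠ 0`, `w ≠ 0`, `φ ≠ 0`, `ψ ≠ 0`). -/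
theorem tv_pairing_of_comm {g g' : V ≃ₗ[ZMod p] V} (hg : ∀ x, g x = x + φ x • v)
    (hg' : ∀ x, g' x = x + ψ x • w) (hw0 : ψ w = 0)
    (hw : w ≠ 0) (hv : v ≠ 0) (hφ : φ ≠ 0) (hψ : ψ ≠ 0)
    (h : g * g' = g' * g) : φ w = 0 ∧ ψ v = 0 := by
  have hx : ∀ x, (ψ x * φ w) • v = (φ x * ψ v) • w := by
    intro x
    have := congrArg (fun f : V ≃ₗ[ZMod p] V => f x) h
    simp only [LinearEquiv.mul_apply, hg, hg', map_add, map_smul, smul_eq_mul] at this
    have h3 : x + ψ x • w + (φ x + ψ x * φ w) • v = x + φ x • v + (ψ x + φ x * ψ v) • w := this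
    have h4 : (ψ x * φ w) • v - (φ x * ψ v) • w = 0 := by
      have : (x + ψ x • w + (φ x + ψ x * φ w) • v) - (x + φ x • v + (ψ x + φ x * ψ v) • w)
          = (ψ x * φ w) • v - (φ x * ψ v) • w := by module
      rw [← this, h3, sub_self]
    exact sub_eq_zero.mp h4
  by_cases hp1 : φ w = 0
  · refine ⟨hp1, ?_⟩
    by_contra hp2
    obtain ⟨x, hx'⟩ : ∃ x, φ x ≠ 0 := by
      by_contra hc
      push Not at hc
      exact hφ (LinearMap.ext hc)
    have := hx x
    rw [hp1, mul_zero, zero_smul] at this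
    have h5 : (φ x * ψ v) • w = 0 := this.symm
    rcases smul_eq_zero.mp h5 with h6 | h6
    · rcases mul_eq_zero.mp h6 with h7 | h7
      · exact hx' h7
      · exact hp2 h7
    · exact hw h6
  · exfalso
    obtain ⟨x, hx'⟩ : ∃ x, ψ x ≠ 0 := by
      by_contra hc
      push Not at hc
      exact hψ (LinearMap.ext hc)
    have h5 := hx x
    -- apply φ to both sides at `x`
    have h6 := congrArg ψ h5
    simp only [map_smul, hw0, smul_eq_mul, mul_zero] at h6
    -- so `ψ x * φ w * ψ v = 0`, thus `ψ v = 0`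
    have h7 : ψ v = 0 := by
      have : ψ x * φ w * ψ v = 0 := h6
      rcases mul_eq_zero.mp this with h8 | h8
      · rcases mul_eq_zero.mp h8 with h9 | h9
        · exact absurd h9 hx'
        · exact absurd h9 hp1
      · exact h8
    rw [h7, mul_zero, zero_smul] at h5
    rcases smul_eq_zero.mp h5 with h6 | h6
    · rcases mul_eq_zero.mp h6 with h8 | h8
      · exact hx' h8
      · exact hp1 h8
    · exact hv h6

end Cfsg.Agent.Lib.McLH39
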