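import Mathlib
import Cfsg.Agent.Lib.McLH39Basic

/-!
# Symplectic pairs for transvection groups
-/

set_option autoImplicit false

namespace Cfsg.Agent.Lib.McLH39

open Module

variable {p : ℕ} [Fact p.Prime] {V : Type*} [AddCommGroup V] [Module (ZMod p) V]
variable {K : Subgroup (V ≃ₗ[ZMod p] V)} {π π₂ : V →ₗ[ZMod p] V}
  {Θ Θ₂ : V →ₗ[ZMod p] Dual (ZMod p) V}

/-- Two nonzero forms do not vanish simultaneously everywhere. -/
theorem exists_ne_ne (f g : Dual (ZMod p) V) (hf : f ≠ 0) (hg : g ≠ 0) :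
    ∃ y, f y ≠ 0 ∧ g y ≠ 0 := by
  obtain ⟨y₁, h1⟩ : ∃ y, f y ≠ 0 := by
    by_contra hc
    push Not at hc
    exact hf (LinearMap.ext hc)
  obtain ⟨y₂, h2⟩ : ∃ y, g y ≠ 0 := by
    by_contra hc
    push Not at hc
    exact hg (LinearMap.ext hc)
  by_cases h3 : g y₁ = 0
  · by_cases h4 : f y₂ = 0
    · exact ⟨y₁ + y₂, by simpa [h4] using h1, by simpa [h3] using h2⟩
    · exact ⟨y₂, h4, h2⟩
  · exact ⟨y₁, h1, h3⟩

/-- A symplectic pair: an idempotent `π` and an alternating form on its range, all of whose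
flags are in `K`. -/
structure SPPair (K : Subgroup (V ≃ₗ[ZMod p] V)) (π : V →ₗ[ZMod p] V)
    (Θ : V →ₗ[ZMod p] Dual (ZMod p) V) : Prop where
  idem : ∀ x, π (π x) = π x
  left : ∀ x, Θ (π x) = Θ x
  right : ∀ x y, Θ x (π y) = Θ x y
  alt : ∀ x, Θ x x = 0
  nondeg : ∀ x, Θ x = 0 → π x = 0
  flag : ∀ x, IsTv K (π x) (Θ x)

namespace SPPair

theorem skew (h : SPPair K π Θ) (x y : V) : Θ x y = - Θ y x := by
  have := h.alt (x + y)
  simp only [map_add, LinearMap.add_apply, h.alt, zero_add, add_zero] at this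
  exact eq_neg_of_add_eq_zero_right this

theorem flag' (h : SPPair K π Θ) {x : V} (hx : π x = x) (t : ZMod p) : IsTv K x (t • Θ x) := by
  have := h.flag x
  rw [hx] at this
  exact this.smul_right t

theorem flag1 (h : SPPair K π Θ) {x : V} (hx : π x = x) : IsTv K x (Θ x) := by
  have := h.flag x
  rwa [hx] at this

theorem apply_of_ker (h : SPPair K π Θ) {x b : V} (hb : π b = 0) : Θ x b = 0 := by
  rw [← h.right, hb, map_zero]

theorem ne_zero_of (h : SPPair K π Θ) {x : V} (hx : π x = x) (hx0 : x ≠ 0) : Θ x ≠ 0 :=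
  fun h0 => hx0 (by rw [← hx]; exact h.nondeg x h0)

theorem orbit_step (h : SPPair K π Θ) {x b z : V} {γ : Dual (ZMod p) V} {κ : ZMod p}
    (hb : π b = 0) (hγ : ∀ y, γ (π y) = 0) (hz : π z = z) (t : ZMod p)
    (hS : IsTv K (x + b) (κ • Θ x + γ)) :
    IsTv K ((x + (t * Θ z x) • z) + b) (κ • Θ (x + (t * Θ z x) • z) + γ) := by
  have h1 := hS.conj_tv (h.flag' hz t)
  have e1 : (t • Θ z) (x + b) = t * Θ z x := by simp [h.apply_of_ker hb]
  have e2 : (κ • Θ x + γ) z = κ * Θ x z := by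
    have : γ z = 0 := by rw [← hz]; exact hγ z
    simp [this]
  rw [e1, e2] at h1
  convert h1 using 1
  · abel
  · ext y
    simp [h.skew z x]
    ring

theorem orbit_adj (h : SPPair K π Θ) {x x' b : V} {γ : Dual (ZMod p) V} {κ : ZMod p}
    (hx : π x = x) (hx' : π x' = x') (hb : π b = 0) (hγ : ∀ y, γ (π y) = 0)
    (hne : Θ x x' ≠ 0) (hS : IsTv K (x + b) (κ • Θ x + γ)) :
    IsTv K (x' + b) (κ • Θ x' + γ) := by
  set z := x' - x with hzd
  have hz : π z = z := by simp [z, hx, hx']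
  have e : Θ z x = Θ x' x := by simp [z, h.alt]
  have e' : Θ x' x ≠ 0 := by
    rw [h.skew]
    exact neg_ne_zero.mpr hne
  have := h.orbit_step hb hγ hz (Θ z x)⁻¹ hS
  rw [inv_mul_cancel₀ (by rwa [e]), one_smul] at this
  simpa [z] using this

/-- Transitivity on nonzero vectors of the range. -/
theorem orbit (h : SPPair K π Θ) {x x' b : V} {γ : Dual (ZMod p) V} {κ : ZMod p}
    (hx : π x = x) (hx' : π x' = x') (hx0 : x ≠ 0) (hx0' : x' ≠ 0)
    (hb : π b = 0) (hγ : ∀ y, γ (π y) = 0)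
    (hS : IsTv K (x + b) (κ • Θ x + γ)) :
    IsTv K (x' + b) (κ • Θ x' + γ) := by
  obtain ⟨y, hy1, hy2⟩ := exists_ne_ne _ _ (h.ne_zero_of hx hx0) (h.ne_zero_of hx' hx0')
  have h1 := h.orbit_adj hx (h.idem y) hb hγ (by rwa [h.right]) hS
  refine h.orbit_adj (h.idem y) hx' hb hγ ?_ h1
  rw [h.skew, h.right]
  exact neg_ne_zero.mpr hy2

/-- The `Z`-lemma: in a mixed transvection, the part orthogonal to the pair is a transvection. -/
theorem zlemma (h : SPPair K π Θ) (h2 : (2 : ZMod p) ≠ 0) {a b : V} {γ : Dual (ZMod p) V}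
    {κ : ZMod p} (ha : π a = a) (ha0 : a ≠ 0) (hb : π b = 0) (hγ : ∀ y, γ (π y) = 0)
    (hS : IsTv K (a + b) (κ • Θ a + γ)) : IsTv K b γ := by
  have ha' : π (-a) = -a := by simp [ha]
  have h1 := h.orbit ha ha' ha0 (neg_ne_zero.mpr ha0) hb hγ hS
  have hγa : γ a = 0 := by rw [← ha]; exact hγ a
  have hab : Θ a b = 0 := h.apply_of_ker hb
  have hγb : γ b = 0 := by
    have := hS.1
    simpa [h.alt, hab, hγa] using this
  refine ⟨hγb, ?_⟩
  obtain ⟨_, g₁, hg₁K, hg₁⟩ := hS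
  obtain ⟨_, g₂, hg₂K, hg₂⟩ := h1
  obtain ⟨_, g₃, hg₃K, hg₃⟩ := h.flag' ha ((-2) * κ)
  -- `g₃ g₁ g₂ x = x + 2 γ(x) b`
  obtain ⟨_, g₄, hg₄K, hg₄⟩ : IsTv K b ((2 : ZMod p)⁻¹ • (2 : ZMod p) • γ) := by
    have key : IsTv K b ((2 : ZMod p) • γ) := by
      refine ⟨by simp [hγb], g₃ * g₁ * g₂, K.mul_mem (K.mul_mem hg₃K hg₁K) hg₂K, fun x => ?_⟩
      simp only [LinearEquiv.mul_apply, hg₁, hg₂, hg₃]
      simp [h.alt, hab, hγa, hγb]
      module
    exact key.smul_right _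
  refine ⟨g₄, hg₄K, fun x => ?_⟩
  rw [hg₄, smul_smul, inv_mul_cancel₀ h2, one_smul]

/-- Scaling the form. -/
theorem smul (h : SPPair K π Θ) {c : ZMod p} (hc : c ≠ 0) : SPPair K π (c • Θ) where
  idem := h.idem
  left x := by simp [h.left]
  right x y := by simp [h.right]
  alt x := by simp [h.alt]
  nondeg x hx := by
    apply h.nondeg
    ext y
    have := congrArg (fun f : Dual (ZMod p) V => f y) hx
    simpa [hc] using this
  flag x := by simpa using (h.flag x).smul_right c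

/-- Merging two orthogonal symplectic pairs, given one mixed transvection. -/
theorem merge (h : SPPair K π Θ) (h₂ : SPPair K π₂ Θ₂) (h12 : ∀ x, π (π₂ x) = 0)
    (h21 : ∀ x, π₂ (π x) = 0) {a b : V} {κ : ZMod p} (ha : π a = a) (ha0 : a ≠ 0) (hb : π₂ b = b)
    (hb0 : b ≠ 0) (hκ : κ ≠ 0) (hS : IsTv K (a + b) (κ • (Θ a + Θ₂ b))) :
    SPPair K (π + π₂) (Θ + Θ₂) := by
  have lr₂ : ∀ x y, Θ x (π₂ y) = 0 := fun x y => by
    rw [← h.right, h12, map_zero]
  have lr₁ : ∀ x y, Θ₂ x (π y) = 0 := fun x y => by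
    rw [← h₂.right, h21, map_zero]
  have hπb : π b = 0 := by rw [← hb]; exact h12 b
  have hπa : π₂ a = 0 := by rw [← ha]; exact h21 a
  refine ⟨?_, ?_, ?_, ?_, ?_, ?_⟩
  · intro x
    simp [h.idem, h₂.idem, h12, h21]
  · intro x
    have e1 : Θ (π x + π₂ x) = Θ x := by
      rw [← h.left (π x + π₂ x)]
      simp [h12, h.idem, h.left]
    have e2 : Θ₂ (π x + π₂ x) = Θ₂ x := by
      rw [← h₂.left (π x + π₂ x)]
      simp [h21, h₂.idem, h₂.left]
    simp [e1, e2]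
  · intro x y
    simp [h.right, h₂.right, lr₂, lr₁]
  · intro x
    simp [h.alt, h₂.alt]
  · intro x hx
    have h0 : ∀ y, Θ x y + Θ₂ x y = 0 := fun y => by
      simpa using congrArg (fun f : Dual (ZMod p) V => f y) hx
    have h1 : Θ x = 0 := by
      ext y
      have := h0 (π y)
      rw [lr₁, add_zero, h.right] at this
      simpa using this
    have h2 : Θ₂ x = 0 := by
      ext y
      have := h0 (π₂ y)
      rw [lr₂, zero_add, h₂.right] at this
      simpa using this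
    simp [h.nondeg x h1, h₂.nondeg x h2]
  · intro x
    have hLeft : Θ (π x) = Θ x := h.left x
    have hRight : Θ₂ (π₂ x) = Θ₂ x := h₂.left x
    by_cases hx : π x = 0
    · have : Θ x = 0 := by rw [← hLeft, hx, map_zero]
      simpa [hx, this] using h₂.flag x
    by_cases hx2 : π₂ x = 0
    · have : Θ₂ x = 0 := by rw [← hRight, hx2, map_zero]
      simpa [hx2, this] using h.flag x
    -- both parts are nonzero
    have hS' : IsTv K (a + b) (κ • Θ a + (κ • Θ₂ b)) := by simpa [smul_add] using hS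
    have s1 : IsTv K (π x + b) (κ • Θ (π x) + (κ • Θ₂ b)) :=
      h.orbit ha (h.idem x) ha0 hx hπb (fun y => by simp [lr₁]) hS'
    have s2 : IsTv K (π x + π₂ x) (κ • (Θ (π x) + Θ₂ (π₂ x))) := by
      have s3 : IsTv K (b + π x) (κ • Θ₂ b + (κ • Θ (π x))) := by
        rw [add_comm b, add_comm (κ • Θ₂ b)]; exact s1
      have s4 := h₂.orbit hb (h₂.idem x) hb0 hx2 (h21 x) (fun y => by simp [lr₂]) s3
      rw [add_comm (π₂ x), add_comm (κ • Θ₂ (π₂ x))] at s4
      simpa [smul_add] using s4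
    have s5 : IsTv K (π x + π₂ x) (Θ (π x) + Θ₂ (π₂ x)) := s2.of_smul_right hκ
    simpa [hLeft, hRight] using s5

end SPPair

/-- The zero pair. -/
theorem SPPair.zero (K : Subgroup (V ≃ₗ[ZMod p] V)) : SPPair K (0 : V →ₗ[ZMod p] V) 0 where
  idem := by simp
  left := by simp
  right := by simp
  alt := by simp
  nondeg := by simp
  flag x := by simpa using IsTv.zero_left K (0 : Dual (ZMod p) V)

/-- The projection onto a hyperbolic plane. -/
noncomputable def πP (v w : V) (φ ψ : Dual (ZMod p) V) : V →ₗ[ZMod p] V :=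
  (ψ v)⁻¹ • ψ.smulRight v + (φ w)⁻¹ • φ.smulRight w

/-- The form on a hyperbolic plane. -/
noncomputable def ΘP (v : V) (φ ψ : Dual (ZMod p) V) : V →ₗ[ZMod p] Dual (ZMod p) V :=
  (ψ v)⁻¹ • (ψ.smulRight φ - φ.smulRight ψ)

theorem πP_apply (v w : V) (φ ψ : Dual (ZMod p) V) (y : V) :
    πP v w φ ψ y = ((ψ v)⁻¹ * ψ y) • v + ((φ w)⁻¹ * φ y) • w := by
  simp [πP, smul_smul]

theorem ΘP_apply (v : V) (φ ψ : Dual (ZMod p) V) (x : V) :
    ΘP v φ ψ x = (ψ v)⁻¹ • (ψ x • φ - φ x • ψ) := by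
  simp [ΘP]

theorem ΘP_apply_apply (v : V) (φ ψ : Dual (ZMod p) V) (x y : V) :
    ΘP v φ ψ x y = (ψ v)⁻¹ * (ψ x * φ y - φ x * ψ y) := by
  simp [ΘP]

section hyp

variable {v w : V} {φ ψ : Dual (ZMod p) V}

/-- All points and forms on a hyperbolic plane. -/
theorem hyp_flag (hv : IsTv K v φ) (hw : IsTv K w ψ) (hb : ψ v ≠ 0) (s r : ZMod p) :
    IsTv K (s • v + r • w) (s • φ - (r * φ w * (ψ v)⁻¹) • ψ) := by
  by_cases hs : s = 0
  · subst hs
    have := (hw.smul_left r).smul_right (-(r * φ w * (ψ v)⁻¹))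
    convert this using 1
    · simp
    · ext y
      simp
  · have h1 := hv.conj_tv (hw.smul_right (r * s⁻¹ * (ψ v)⁻¹))
    have h2 := (h1.smul_left s).smul_right s
    convert h2 using 1
    · simp only [LinearMap.smul_apply, smul_eq_mul, smul_add, smul_smul]
      congr 2
      field_simp
    · ext y
      simp
      field_simp

theorem spPair_hyp (hv : IsTv K v φ) (hw : IsTv K w ψ) (ha : φ w ≠ 0) (hb : ψ v ≠ 0) :
    SPPair K (πP v w φ ψ) (ΘP v φ ψ) := by
  have hφv : φ v = 0 := hv.1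
  have hψw : ψ w = 0 := hw.1
  have e1 : ∀ y, ψ (πP v w φ ψ y) = ψ y := by
    intro y
    simp [πP_apply, hψw]
    field_simp
  have e2 : ∀ y, φ (πP v w φ ψ y) = φ y := by
    intro y
    simp [πP_apply, hφv]
    field_simp
  refine ⟨?_, ?_, ?_, ?_, ?_, ?_⟩
  · intro x
    simp only [πP_apply] at e1 e2 ⊢
    rw [e1, e2]
  · intro x
    simp only [ΘP_apply, e1, e2]
  · intro x y
    simp only [ΘP_apply_apply, e1, e2]
  · intro x
    simp only [ΘP_apply_apply]
    ring_nf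
  · intro x hx
    have h1 := congrArg (fun f : Dual (ZMod p) V => f w) hx
    have h2 := congrArg (fun f : Dual (ZMod p) V => f v) hx
    simp only [ΘP_apply_apply, hψw, hφv, LinearMap.zero_apply] at h1 h2
    have h3 : ψ x = 0 := by
      have : (ψ v)⁻¹ * (ψ x * φ w - φ x * 0) = 0 := h1
      simpa [hb, ha] using this
    have h4 : φ x = 0 := by
      have : (ψ v)⁻¹ * (ψ x * 0 - φ x * ψ v) = 0 := h2
      simpa [hb] using this
    simp [πP_apply, h3, h4]
  · intro x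
    have h1 := hyp_flag hv hw hb ((ψ v)⁻¹ * ψ x) ((φ w)⁻¹ * φ x)
    rw [πP_apply, ΘP_apply]
    convert h1 using 1
    ext y
    simp
    field_simp

theorem πP_left (v w : V) {φ ψ : Dual (ZMod p) V} (hφv : φ v = 0) (hb : ψ v ≠ 0) :
    πP v w φ ψ v = v := by
  simp [πP_apply, hφv, hb]

theorem πP_right (v w : V) {φ ψ : Dual (ZMod p) V} (hψw : ψ w = 0) (ha : φ w ≠ 0) :
    πP v w φ ψ w = w := by
  simp [πP_apply, hψw, ha]

theorem ΘP_left (v : V) {φ ψ : Dual (ZMod p) V} (hφv : φ v = 0) (hb : ψ v ≠ 0) :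
    ΘP v φ ψ v = φ := by
  ext y
  simp [ΘP_apply_apply, hφv, hb]

end hyp

end Cfsg.Agent.Lib.McLH39
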