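import Mathlib
import Cfsg.Agent.Lib.McLH39Sp

/-!
# Maximal symplectic pairs when no non-commuting unipotent pair exists
-/

set_option autoImplicit false

namespace Cfsg.Agent.Lib.McLH39

open Module

variable {p : ℕ} [Fact p.Prime] {V : Type*} [AddCommGroup V] [Module (ZMod p) V]
variable {K : Subgroup (V ≃ₗ[ZMod p] V)} {π π₂ : V →ₗ[ZMod p] V}
  {Θ Θ₂ : V →ₗ[ZMod p] Dual (ZMod p) V}

/-- Every nontrivial transvection of `K` has a hyperbolic partner in `K`. -/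
def Hyp (K : Subgroup (V ≃ₗ[ZMod p] V)) : Prop :=
  ∀ (v : V) (φ : Dual (ZMod p) V), v ≠ 0 → φ ≠ 0 → IsTv K v φ →
    ∃ (w : V) (ψ : Dual (ZMod p) V), IsTv K w ψ ∧ φ w ≠ 0 ∧ ψ v ≠ 0

/-- No pair of nontrivial transvections with `φ w ≠ 0`, `ψ v = 0`. -/
def NoUnip (K : Subgroup (V ≃ₗ[ZMod p] V)) : Prop :=
  ∀ (v : V) (φ : Dual (ZMod p) V) (w : V) (ψ : Dual (ZMod p) V), v ≠ 0 → φ ≠ 0 → w ≠ 0 → ψ ≠ 0 →
    IsTv K v φ → IsTv K w ψ → φ w ≠ 0 → ψ v ≠ 0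

namespace SPPair

theorem decomp (h : SPPair K π Θ) (hNU : NoUnip K) {u : V} {θ : Dual (ZMod p) V} (hu0 : u ≠ 0)
    (hθ0 : θ ≠ 0) (huθ : IsTv K u θ) :
    ∃ κ : ZMod p, (∀ x, θ (π x) = κ * Θ (π u) x) ∧ (π u ≠ 0 → κ ≠ 0) := by
  have key : ∀ x₀, π x₀ = x₀ → (θ x₀ ≠ 0 ↔ Θ x₀ (π u) ≠ 0) := by
    intro x₀ hx₀
    by_cases hx0 : x₀ = 0
    · subst hx0
      simp
    have hΘ := h.ne_zero_of hx₀ hx0
    rw [h.right]
    constructor
    · exact hNU u θ x₀ (Θ x₀) hu0 hθ0 hx0 hΘ huθ (h.flag1 hx₀)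
    · exact hNU x₀ (Θ x₀) u θ hx0 hΘ hu0 hθ0 (h.flag1 hx₀) huθ
  by_cases ha : π u = 0
  · refine ⟨0, fun x => ?_, fun h' => absurd ha h'⟩
    by_contra hc
    have := (key (π x) (h.idem x)).mp (by simpa using hc)
    rw [ha] at this
    simp at this
  · have hne : Θ (π u) ≠ 0 := h.ne_zero_of (h.idem u) ha
    obtain ⟨y, hy⟩ : ∃ y, Θ (π u) y ≠ 0 := by
      by_contra hc
      push Not at hc
      exact hne (LinearMap.ext hc)
    refine ⟨θ (π y) * (Θ (π u) y)⁻¹, fun x => ?_, fun _ => ?_⟩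
    · set x' := x - (Θ (π u) x * (Θ (π u) y)⁻¹) • y with hx'
      have h1 : Θ (π u) x' = 0 := by
        simp only [hx', map_sub, map_smul, smul_eq_mul]
        field_simp
        ring
      have h2 : θ (π x') = 0 := by
        by_contra hc
        have h3 := (key (π x') (h.idem x')).mp hc
        rw [h.skew, h.right, h1] at h3
        simp at h3
      simp only [hx', map_sub, map_smul, smul_eq_mul] at h2
      have h3 : θ (π x) = Θ (π u) x * (Θ (π u) y)⁻¹ * θ (π y) := sub_eq_zero.mp h2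
      rw [h3]
      ring
    · refine mul_ne_zero ?_ (inv_ne_zero hy)
      refine (key (π y) (h.idem y)).mpr ?_
      rw [h.skew, h.right]
      exact neg_ne_zero.mpr hy

theorem flag_case (h : SPPair K π Θ) (hNU : NoUnip K) {u : V} {θ : Dual (ZMod p) V} (hu0 : u ≠ 0)
    (hθ0 : θ ≠ 0) (huθ : IsTv K u θ) (hu : π u = u) : ∃ κ : ZMod p, κ ≠ 0 ∧ θ = κ • Θ u := by
  obtain ⟨κ, h1, h2⟩ := h.decomp hNU hu0 hθ0 huθ
  rw [hu] at h1 h2
  have hκ := h2 hu0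
  refine ⟨κ, hκ, ?_⟩
  have h3 : IsTv K u (θ - κ • Θ u) := huθ.sub_right (h.flag' hu κ)
  by_contra hc
  have hβ : θ - κ • Θ u ≠ 0 := sub_ne_zero.mpr hc
  obtain ⟨y, hy⟩ : ∃ y, Θ u y ≠ 0 := by
    by_contra hc'
    push Not at hc'
    exact h.ne_zero_of hu hu0 (LinearMap.ext hc')
  have hy' : Θ u (π y) ≠ 0 := by rwa [h.right]
  have hy0 : π y ≠ 0 := by
    intro h0
    rw [h0] at hy'
    simp at hy'
  have h4 := hNU (π y) (Θ (π y)) u _ hy0 (h.ne_zero_of (h.idem y) hy0) hu0 hβ (h.flag1 (h.idem y)) h3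
    (by rw [h.skew]; exact neg_ne_zero.mpr hy')
  apply h4
  simp [h1, h.right]

theorem comm_case (h : SPPair K π Θ) (hNU : NoUnip K) {u : V} {θ : Dual (ZMod p) V} (hu0 : u ≠ 0)
    (hθ0 : θ ≠ 0) (huθ : IsTv K u θ) (hu : π u = 0) (y : V) : θ (π y) = 0 := by
  obtain ⟨κ, h1, _⟩ := h.decomp hNU hu0 hθ0 huθ
  rw [h1, hu]
  simp

/-- The `Z`-decomposition of a transvection relative to a symplectic pair. -/
theorem zpart (h : SPPair K π Θ) (hNU : NoUnip K) (h2 : (2 : ZMod p) ≠ 0) {u : V}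
    {θ : Dual (ZMod p) V} (hu0 : u ≠ 0) (hθ0 : θ ≠ 0) (huθ : IsTv K u θ) :
    ∃ κ : ZMod p, (∀ x, θ (π x) = κ * Θ (π u) x) ∧ (π u ≠ 0 → κ ≠ 0) ∧
      (∀ y, (θ - κ • Θ (π u)) (π y) = 0) ∧ IsTv K (u - π u) (θ - κ • Θ (π u)) := by
  obtain ⟨κ, h1, h3⟩ := h.decomp hNU hu0 hθ0 huθ
  have hγ : ∀ y, (θ - κ • Θ (π u)) (π y) = 0 := by
    intro y
    simp [h1, h.right]
  refine ⟨κ, h1, h3, hγ, ?_⟩
  by_cases ha : π u = 0
  · simpa [ha] using huθ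
  · have hb : π (u - π u) = 0 := by simp [h.idem]
    refine h.zlemma h2 (κ := κ) (h.idem u) ha hb hγ ?_
    convert huθ using 1
    · abel
    · abel

/-- A mixed transvection produces a larger symplectic pair. -/
theorem mixed (h : SPPair K π Θ) (hNU : NoUnip K) (hHyp : Hyp K) (h2 : (2 : ZMod p) ≠ 0) {u : V}
    {θ : Dual (ZMod p) V} (hu0 : u ≠ 0) (hθ0 : θ ≠ 0) (huθ : IsTv K u θ) (ha : π u ≠ 0)
    (hb0 : u - π u ≠ 0) :
    ∃ π₁ Θ₁, SPPair K π₁ Θ₁ ∧ LinearMap.range π < LinearMap.range π₁ := by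
  obtain ⟨κ, h1, h3, hγ, hbβ⟩ := h.zpart hNU h2 hu0 hθ0 huθ
  have hκ := h3 ha
  set a := π u with hadef
  set b := u - a with hbdef
  set β := θ - κ • Θ a with hβdef
  have hπa : π a = a := h.idem u
  have hπb : π b = 0 := by simp [b, hπa, a]
  have hud : u = a + b := by simp [b]
  have hθd : θ = κ • Θ a + β := by simp [β]
  -- `β ≠ 0`
  have hβ0 : β ≠ 0 := by
    intro hβ
    rw [hβ, add_zero] at hθd
    have h4 : IsTv K b (κ • Θ a) := by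
      have huθ' : IsTv K u (κ • Θ a) := by rw [← hθd]; exact huθ
      exact huθ'.sub_left (h.flag' hπa κ)
    have h5 : IsTv K b (Θ a) := h4.of_smul_right hκ
    have hne : Θ a ≠ 0 := h.ne_zero_of hπa ha
    obtain ⟨y, hy⟩ : ∃ y, Θ a y ≠ 0 := by
      by_contra hc'
      push Not at hc'
      exact hne (LinearMap.ext hc')
    have hy' : Θ a (π y) ≠ 0 := by rwa [h.right]
    have hy0 : π y ≠ 0 := by
      intro h0
      rw [h0] at hy'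
      simp at hy'
    have h6 := hNU b (Θ a) (π y) (Θ (π y)) hb0 hne hy0 (h.ne_zero_of (h.idem y) hy0) h5
      (h.flag1 (h.idem y)) hy'
    exact h6 (h.apply_of_ker hπb)
  -- a hyperbolic partner
  obtain ⟨u₂, θ₂, hu₂, h5, h6⟩ := hHyp b β hb0 hβ0 hbβ
  have hu₂0 : u₂ ≠ 0 := by
    rintro rfl
    simp at h5
  have hθ₂0 : θ₂ ≠ 0 := by
    rintro rfl
    simp at h6
  obtain ⟨κ₂, h7, _, hγ₂, hbβ₂⟩ := h.zpart hNU h2 hu₂0 hθ₂0 hu₂
  set b₂ := u₂ - π u₂ with hb₂def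
  set β₂ := θ₂ - κ₂ • Θ (π u₂) with hβ₂def
  have hπb₂ : π b₂ = 0 := by simp [b₂, h.idem]
  have e1 : β b₂ ≠ 0 := by
    simp only [b₂, map_sub, hγ, sub_zero]
    exact h5
  have e2 : β₂ b ≠ 0 := by
    have : β₂ b = θ₂ b := by
      simp [β₂, h.apply_of_ker hπb]
    rw [this]
    exact h6
  have hP := spPair_hyp hbβ hbβ₂ e1 e2
  have hP' := hP.smul (inv_ne_zero hκ)
  have hβb : β b = 0 := hbβ.1
  have hβ₂b₂ : β₂ b₂ = 0 := hbβ₂.1
  have hθb : ΘP b β β₂ b = β := ΘP_left b hβb e2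
  have hb' : πP b b₂ β β₂ b = b := πP_left b b₂ hβb e2
  have hb₂' : πP b b₂ β β₂ b₂ = b₂ := πP_right b b₂ hβ₂b₂ e1
  have h12 : ∀ x, π (πP b b₂ β β₂ x) = 0 := by
    intro x
    simp [πP_apply, hπb, hπb₂]
  have h21 : ∀ x, πP b b₂ β β₂ (π x) = 0 := by
    intro x
    simp [πP_apply, hγ, hγ₂]
  have hm := h.merge hP' h12 h21 hπa ha hb' hb0 hκ (by
    have : κ • (Θ a + (κ⁻¹ • ΘP b β β₂) b) = θ := by
      rw [hθd]
      simp [hθb, smul_add, smul_smul, hκ]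
    rw [this, ← hud]
    exact huθ)
  refine ⟨_, _, hm, lt_of_le_of_ne ?_ ?_⟩
  · rintro _ ⟨y, rfl⟩
    refine ⟨π y, ?_⟩
    simp [h.idem, h21]
  · intro heq
    have hb1 : b ∈ LinearMap.range (π + πP b b₂ β β₂) := ⟨b, by simp [hπb, hb']⟩
    rw [← heq] at hb1
    obtain ⟨y, hy⟩ := hb1
    apply hb0
    have : π b = b := by rw [← hy, h.idem]
    rw [← this]
    exact hπb

end SPPair

/-- The maximal symplectic pair. -/
theorem sp_max [Finite V] (h2 : (2 : ZMod p) ≠ 0) (hHyp : Hyp K) (hNU : NoUnip K) :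
    ∃ (π : V →ₗ[ZMod p] V) (Θ : V →ₗ[ZMod p] Dual (ZMod p) V), SPPair K π Θ ∧
      (∀ (u : V) (θ : Dual (ZMod p) V), u ≠ 0 → θ ≠ 0 → IsTv K u θ →
        (π u = u ∧ ∃ κ : ZMod p, κ ≠ 0 ∧ θ = κ • Θ u) ∨ (π u = 0 ∧ ∀ y, θ (π y) = 0)) ∧
      ((∃ (v : V) (φ : Dual (ZMod p) V), v ≠ 0 ∧ φ ≠ 0 ∧ IsTv K v φ) → ∃ x, π x ≠ 0) := by
  let S : Set (Submodule (ZMod p) V) := {W | ∃ π Θ, SPPair K π Θ ∧ W = LinearMap.range π}
  have hS : S.Nonempty := ⟨_, 0, 0, SPPair.zero K, rfl⟩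
  obtain ⟨W, hW⟩ := (Set.toFinite S).exists_maximal hS
  obtain ⟨π, Θ, h, hWπ⟩ := hW.prop
  have hno : ∀ π₁ Θ₁, SPPair K π₁ Θ₁ → ¬ LinearMap.range π < LinearMap.range π₁ := by
    intro π₁ Θ₁ h₁ hlt
    rw [← hWπ] at hlt
    exact absurd (hW.le_of_ge (y := LinearMap.range π₁) ⟨π₁, Θ₁, h₁, rfl⟩ hlt.le) (not_le_of_gt hlt)
  refine ⟨π, Θ, h, ?_, ?_⟩
  · intro u θ hu0 hθ0 huθ
    by_cases ha : π u = 0
    · exact Or.inr ⟨ha, h.comm_case hNU hu0 hθ0 huθ ha⟩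
    · by_cases hb : u - π u = 0
      · have hu : π u = u := (sub_eq_zero.mp hb).symm
        exact Or.inl ⟨hu, h.flag_case hNU hu0 hθ0 huθ hu⟩
      · obtain ⟨π₁, Θ₁, h₁, hlt⟩ := h.mixed hNU hHyp h2 hu0 hθ0 huθ ha hb
        exact absurd hlt (hno π₁ Θ₁ h₁)
  · rintro ⟨v, φ, hv, hφ, hvφ⟩
    by_contra hc
    push Not at hc
    obtain ⟨w, ψ, hwψ, h1, h3⟩ := hHyp v φ hv hφ hvφ
    have hP := spPair_hyp hvφ hwψ h1 h3
    apply hno _ _ hP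
    have hr : LinearMap.range π = ⊥ := by
      rw [LinearMap.range_eq_bot]
      exact LinearMap.ext hc
    rw [hr, bot_lt_iff_ne_bot]
    intro hbot
    apply hv
    have : v ∈ LinearMap.range (πP v w φ ψ) := ⟨v, πP_left v w hvφ.1 h3⟩
    rw [hbot] at this
    simpa using this

end Cfsg.Agent.Lib.McLH39
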