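import Mathlib
import Cfsg.Agent.Lib.McLH39SpMax
import Cfsg.Agent.Lib.BaerSuzuki
import Cfsg.Agent.Lib.PCore
import Cfsg.Prelude.Def_Solvable

/-!
# Hyperbolic partners from the triviality of the `p`-core
-/

set_option autoImplicit false

namespace Cfsg.Agent.Lib.McLH39

open Module

variable {p : ℕ} [Fact p.Prime] {V : Type*} [AddCommGroup V] [Module (ZMod p) V]

/-- Baer-Suzuki for a conjugation-invariant set of elements. -/
theorem mem_pCore_of_pairs' {G : Type*} [Group G] [Finite G] (T : Set G)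
    (hconj : ∀ g : G, ∀ x ∈ T, g * x * g⁻¹ ∈ T)
    (hpair : ∀ x ∈ T, ∀ y ∈ T, IsPGroup p ↥(Subgroup.zpowers x ⊔ Subgroup.zpowers y)) :
    ∀ x ∈ T, x ∈ Cfsg.pCore p G := by
  let Ω : Set (Subgroup G) := Subgroup.zpowers '' T
  have hΩ : ∀ Y ∈ Ω, ∀ g : G, Y.map (MulAut.conj g).toMonoidHom ∈ Ω := by
    rintro Y ⟨x, hx, rfl⟩ g
    refine ⟨g * x * g⁻¹, hconj g x hx, ?_⟩
    rw [MonoidHom.map_zpowers]
    rfl
  have hpΩ : ∀ Y ∈ Ω, ∀ Z ∈ Ω, IsPGroup p ↥(Y ⊔ Z) := by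
    rintro Y ⟨x, hx, rfl⟩ Z ⟨y, hy, rfl⟩
    exact hpair x hx y hy
  have hS := Cfsg.Agent.Lib.BaerSuzuki.isPGroup_sSup Ω hΩ hpΩ
  have hnorm : (sSup Ω).Normal := by
    constructor
    intro n hn g
    have hmap : (sSup Ω).map (MulAut.conj g).toMonoidHom ≤ sSup Ω := by
      rw [Subgroup.map_le_iff_le_comap, sSup_le_iff]
      intro Y hY
      rw [← Subgroup.map_le_iff_le_comap]
      exact le_sSup (hΩ Y hY g)
    exact hmap ⟨n, hn, rfl⟩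
  have hle : sSup Ω ≤ Cfsg.pCore p G := Cfsg.Agent.Lib.PCore.le_pCore hnorm hS
  intro x hx
  have hx' : Subgroup.zpowers x ≤ sSup Ω := le_sSup ⟨x, hx, rfl⟩
  exact hle (hx' (Subgroup.mem_zpowers x))

section unip

variable {v₁ v₂ : V} {φ₁ φ₂ : Dual (ZMod p) V}

/-- The group generated by two transvections, one of which centralizes the center of the other,
has exponent `p`. -/
theorem exists_unip_subgroup (hodd : Odd p) (h1 : φ₁ v₁ = 0) (h2 : φ₂ v₂ = 0) (h3 : φ₂ v₁ = 0) :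
    ∃ S : Subgroup (V ≃ₗ[ZMod p] V), (∀ g : V ≃ₗ[ZMod p] V, (∀ x, g x = x + φ₁ x • v₁) → g ∈ S) ∧
      (∀ g : V ≃ₗ[ZMod p] V, (∀ x, g x = x + φ₂ x • v₂) → g ∈ S) ∧ ∀ e ∈ S, e ^ p = 1 := by
  let A : (V ≃ₗ[ZMod p] V) → Prop := fun e => ∃ c d f : ZMod p,
    ∀ z, e z = z + (c * φ₁ z + f * φ₂ z) • v₁ + (d * φ₂ z) • v₂
  have hmul : ∀ {e e' : V ≃ₗ[ZMod p] V}, A e → A e' → A (e * e') := by
    rintro e e' ⟨c, d, f, he⟩ ⟨c', d', f', he'⟩
    refine ⟨c + c', d + d', f + f' + c * d' * φ₁ v₂, fun z => ?_⟩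
    rw [LinearEquiv.mul_apply, he, he']
    simp only [map_add, map_smul, h1, h2, h3, smul_eq_mul, mul_zero, add_zero]
    module
  have hinv : ∀ {e : V ≃ₗ[ZMod p] V}, A e → A e⁻¹ := by
    rintro e ⟨c, d, f, he⟩
    refine ⟨-c, -d, -f + c * d * φ₁ v₂, fun z => ?_⟩
    rw [LinearEquiv.coe_inv, LinearEquiv.symm_apply_eq, he]
    simp only [map_add, map_smul, h1, h2, h3, smul_eq_mul, mul_zero, add_zero]
    module
  have hone : A 1 := ⟨0, 0, 0, fun z => by simp⟩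
  let S : Subgroup (V ≃ₗ[ZMod p] V) :=
    { carrier := {e | A e}
      mul_mem' := hmul
      one_mem' := hone
      inv_mem' := hinv }
  refine ⟨S, fun g hg => ⟨1, 0, 0, fun z => by simp [hg]⟩, fun g hg => ⟨0, 1, 0, fun z => by simp [hg]⟩, ?_⟩
  rintro e ⟨c, d, f, he⟩
  have hpow : ∀ (k : ℕ) (z : V), (e ^ k) z = z + (((k : ZMod p) * c) * φ₁ z +
      (((k : ZMod p) * f) + ((k.choose 2 : ℕ) : ZMod p) * (c * d * φ₁ v₂)) * φ₂ z) • v₁ +
      (((k : ZMod p) * d) * φ₂ z) • v₂ := by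
    intro k z
    induction k with
    | zero => simp
    | succ k ih =>
      rw [pow_succ', LinearEquiv.mul_apply, ih, he]
      have e1 : ((k + 1).choose 2 : ℕ) = k + k.choose 2 := by
        rw [Nat.choose_succ_succ' k 1]
        simp
      simp only [map_add, map_smul, h1, h2, h3, smul_eq_mul, mul_zero, add_zero, e1]
      push_cast
      module
  ext z
  have hp3 : 2 < p := by
    have := (Fact.out : p.Prime).two_le
    obtain ⟨k, hk⟩ := hodd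
    omega
  have e2 : ((p.choose 2 : ℕ) : ZMod p) = 0 := by
    rw [ZMod.natCast_eq_zero_iff]
    exact (Fact.out : p.Prime).dvd_choose_self (by omega) hp3
  rw [hpow, e2]
  simp

end unip

section partner

variable [Finite V]

theorem exists_partner (hodd : Odd p) (H : Subgroup (V ≃ₗ[ZMod p] V))
    (hOp : Cfsg.pCore p ↥H = ⊥) {g : V ≃ₗ[ZMod p] V} (hg : g ∈ H) {v : V}
    {φ : Dual (ZMod p) V} (h0 : φ v = 0) (hgx : ∀ x, g x = x + φ x • v) (hv : v ≠ 0)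
    (hφ : φ ≠ 0) : ∃ h ∈ H, φ (h v) ≠ 0 ∧ φ (h⁻¹ v) ≠ 0 := by
  by_contra hc
  push Not at hc
  have : Finite ↥H := Finite.of_injective (fun x : ↥H => ((x : V ≃ₗ[ZMod p] V) : V → V))
    (fun a b hab => Subtype.ext (DFunLike.coe_injective hab))
  -- the conjugates
  have hform : ∀ h : V ≃ₗ[ZMod p] V, ∀ x, (h * g * h⁻¹) x = x + φ (h⁻¹ x) • h v := by
    intro h x
    simp only [LinearEquiv.mul_apply, hgx, map_add, map_smul]
    simp
  let T' : Set ↥H := {x | ∃ h : ↥H, x = h * ⟨g, hg⟩ * h⁻¹}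
  have hmem : ∀ x ∈ T', x ∈ Cfsg.pCore p ↥H := by
    apply mem_pCore_of_pairs'
    · rintro a x ⟨h, rfl⟩
      exact ⟨a * h, by group⟩
    · rintro x ⟨h₁, rfl⟩ y ⟨h₂, rfl⟩
      -- forms and centers
      let φ₁ : Dual (ZMod p) V := φ.comp (((h₁ : V ≃ₗ[ZMod p] V)⁻¹ : V ≃ₗ[ZMod p] V) : V →ₗ[ZMod p] V)
      let φ₂ : Dual (ZMod p) V := φ.comp (((h₂ : V ≃ₗ[ZMod p] V)⁻¹ : V ≃ₗ[ZMod p] V) : V →ₗ[ZMod p] V)
      let v₁ : V := (h₁ : V ≃ₗ[ZMod p] V) v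
      let v₂ : V := (h₂ : V ≃ₗ[ZMod p] V) v
      have h11 : φ₁ v₁ = 0 := by simp [φ₁, v₁, h0]
      have h22 : φ₂ v₂ = 0 := by simp [φ₂, v₂, h0]
      have hx : ∀ z, ((h₁ * ⟨g, hg⟩ * h₁⁻¹ : ↥H) : V ≃ₗ[ZMod p] V) z = z + φ₁ z • v₁ :=
        fun z => hform _ z
      have hy : ∀ z, ((h₂ * ⟨g, hg⟩ * h₂⁻¹ : ↥H) : V ≃ₗ[ZMod p] V) z = z + φ₂ z • v₂ :=
        fun z => hform _ z
      -- the two pairings
      have hor : φ₁ v₂ = 0 ∨ φ₂ v₁ = 0 := by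
        by_cases h12 : φ₁ v₂ = 0
        · exact Or.inl h12
        · right
          have h3 := hc ((h₁ : V ≃ₗ[ZMod p] V)⁻¹ * h₂) (H.mul_mem (H.inv_mem h₁.2) h₂.2) h12
          have h4 : (((h₁ : V ≃ₗ[ZMod p] V)⁻¹ * h₂)⁻¹ : V ≃ₗ[ZMod p] V) = (h₂ : V ≃ₗ[ZMod p] V)⁻¹ * h₁ := by
            group
          rw [h4] at h3
          exact h3
      have key : ∀ (a b : ↥H), (∃ S : Subgroup (V ≃ₗ[ZMod p] V), (a : V ≃ₗ[ZMod p] V) ∈ S ∧
          (b : V ≃ₗ[ZMod p] V) ∈ S ∧ ∀ e ∈ S, e ^ p = 1) →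
          IsPGroup p ↥(Subgroup.zpowers a ⊔ Subgroup.zpowers b) := by
        rintro a b ⟨S, ha, hb, hS⟩ ⟨e, he⟩
        have hle : Subgroup.zpowers a ⊔ Subgroup.zpowers b ≤ S.comap H.subtype :=
          sup_le ((Subgroup.zpowers_le).mpr ha) ((Subgroup.zpowers_le).mpr hb)
        refine ⟨1, ?_⟩
        apply Subtype.ext
        apply Subtype.ext
        have := hS _ (hle he)
        simpa using this
      rcases hor with h12 | h21
      · rw [sup_comm]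
        obtain ⟨S, h5, h6, h7⟩ := exists_unip_subgroup hodd h22 h11 h12
        exact key _ _ ⟨S, h5 _ hy, h6 _ hx, h7⟩
      · obtain ⟨S, h5, h6, h7⟩ := exists_unip_subgroup hodd h11 h22 h21
        exact key _ _ ⟨S, h5 _ hx, h6 _ hy, h7⟩
  have h1 : (⟨g, hg⟩ : ↥H) ∈ T' := ⟨1, by group⟩
  have h2 := hmem _ h1
  rw [hOp, Subgroup.mem_bot] at h2
  have h3 : g = 1 := congrArg Subtype.val h2
  apply hφ
  ext x
  have h4 := hgx x
  rw [h3] at h4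
  have h5 : φ x • v = 0 := by
    simpa using h4.symm
  simpa [hv] using h5

/-- The partner property for a subgroup normal in `H`. -/
theorem hyp_of_normal (hodd : Odd p) (H : Subgroup (V ≃ₗ[ZMod p] V))
    (hOp : Cfsg.pCore p ↥H = ⊥) (K : Subgroup (V ≃ₗ[ZMod p] V)) (hKH : K ≤ H)
    (hnorm : ∀ h ∈ H, ∀ k ∈ K, h * k * h⁻¹ ∈ K) : Hyp K := by
  rintro v φ hv hφ ⟨h0, g, hgK, hgx⟩
  obtain ⟨h, hh, h1, h2⟩ := exists_partner hodd H hOp (hKH hgK) h0 hgx hv hφ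
  refine ⟨h v, φ.comp ((h⁻¹ : V ≃ₗ[ZMod p] V) : V →ₗ[ZMod p] V), ⟨?_, ?_⟩, h1, h2⟩
  · simp [h0]
  · refine ⟨h * g * h⁻¹, hnorm h hh g hgK, fun x => ?_⟩
    simp only [LinearEquiv.mul_apply, hgx, map_add, map_smul]
    simp

end partner

end Cfsg.Agent.Lib.McLH39
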