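import Mathlib
import Cfsg.Agent.Lib.McLH39SpMax

/-!
# Linear pairs for transvection groups
-/

set_option autoImplicit false

namespace Cfsg.Agent.Lib.McLH39

open Module

variable {p : ℕ} [Fact p.Prime] {V : Type*} [AddCommGroup V] [Module (ZMod p) V]
variable {K : Subgroup (V ≃ₗ[ZMod p] V)} {π : V →ₗ[ZMod p] V}

/-- All flags of the range of the idempotent `π` are in `K`. -/
structure SLPair (K : Subgroup (V ≃ₗ[ZMod p] V)) (π : V →ₗ[ZMod p] V) : Prop where
  idem : ∀ x, π (π x) = π x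
  flag : ∀ (x : V) (χ : Dual (ZMod p) V), π x = x → (∀ y, χ (π y) = χ y) → χ x = 0 → IsTv K x χ

/-- The vectors in the kernel of `π` which are centers for all forms of the range. -/
def B₁ (K : Subgroup (V ≃ₗ[ZMod p] V)) (π : V →ₗ[ZMod p] V) (b : V) : Prop :=
  π b = 0 ∧ ∀ χ : Dual (ZMod p) V, (∀ y, χ (π y) = χ y) → IsTv K b χ

/-- The forms vanishing on the range of `π` which are axes for all vectors of the range. -/
def B₂ (K : Subgroup (V ≃ₗ[ZMod p] V)) (π : V →ₗ[ZMod p] V) (β : Dual (ZMod p) V) : Prop :=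
  (∀ y, β (π y) = 0) ∧ ∀ x, π x = x → IsTv K x β

section LA

variable (h : ∀ x, π (π x) = π x)
include h

/-- A nonzero vector of the range is detected by a form of the range. -/
theorem exists_form_ne {x : V} (hx : π x = x) (hx0 : x ≠ 0) :
    ∃ χ : Dual (ZMod p) V, (∀ y, χ (π y) = χ y) ∧ χ x ≠ 0 := by
  obtain ⟨f, hf⟩ : ∃ f : Dual (ZMod p) V, f x ≠ 0 := by
    by_contra hc
    push Not at hc
    exact hx0 ((Module.forall_dual_apply_eq_zero_iff (ZMod p) x).mp hc)
  refine ⟨f.comp π, fun y => ?_, ?_⟩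
  · simp [h]
  · simpa [hx] using hf

variable [Finite V]

/-- In rank at least three two vectors are killed by a nonzero form of the range. -/
theorem exists_form_kill (hrk : 3 ≤ finrank (ZMod p) (LinearMap.range π)) (a y : V) :
    ∃ χ : Dual (ZMod p) V, χ ≠ 0 ∧ (∀ z, χ (π z) = χ z) ∧ χ a = 0 ∧ χ y = 0 := by
  have : Module.Finite (ZMod p) V := Module.Finite.of_finite
  let W : Submodule (ZMod p) V := Submodule.span (ZMod p) {a, y} ⊔ LinearMap.ker π
  have hW : W < ⊤ := by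
    refine lt_of_le_of_ne le_top ?_
    intro htop
    have h1 : finrank (ZMod p) W ≤ 2 + finrank (ZMod p) (LinearMap.ker π) := by
      refine (Submodule.finrank_add_le_finrank_add_finrank _ _).trans ?_
      have h2 : finrank (ZMod p) (Submodule.span (ZMod p) ({a, y} : Set V)) ≤ 2 := by
        classical
        have := finrank_span_finset_le_card (R := ZMod p) ({a, y} : Finset V)
        rw [Finset.coe_insert, Finset.coe_singleton] at this
        exact this.trans Finset.card_le_two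
      omega
    have h3 := LinearMap.finrank_range_add_finrank_ker π
    rw [htop, finrank_top] at h1
    omega
  obtain ⟨f, hf0, hf⟩ := Submodule.exists_le_ker_of_lt_top W hW
  refine ⟨f, hf0, fun z => ?_, ?_, ?_⟩
  · have h1 : z - π z ∈ W := Submodule.mem_sup_right (by simp [LinearMap.mem_ker, h])
    have h2 := hf h1
    simp only [LinearMap.mem_ker, map_sub] at h2
    exact (sub_eq_zero.mp h2).symm
  · exact hf (Submodule.mem_sup_left (Submodule.subset_span (by simp)))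
  · exact hf (Submodule.mem_sup_left (Submodule.subset_span (by simp)))

omit h in
/-- In rank at least three two forms kill a nonzero vector of the range. -/
theorem exists_vec_kill (h : ∀ x, π (π x) = π x) (hrk : 3 ≤ finrank (ZMod p) (LinearMap.range π))
    (f g : Dual (ZMod p) V) :
    ∃ x : V, x ≠ 0 ∧ π x = x ∧ f x = 0 ∧ g x = 0 := by
  have : Module.Finite (ZMod p) V := Module.Finite.of_finite
  let L : LinearMap.range π →ₗ[ZMod p] (ZMod p × ZMod p) :=
    (f.domRestrict _).prod (g.domRestrict _)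
  have h1 : LinearMap.ker L ≠ ⊥ := by
    apply LinearMap.ker_ne_bot_of_finrank_lt
    simp only [finrank_prod, finrank_self]
    omega
  obtain ⟨⟨x, hxr⟩, hx, hx0⟩ := (Submodule.ne_bot_iff _).mp h1
  have h2 : f x = 0 ∧ g x = 0 := by
    have : L ⟨x, hxr⟩ = 0 := hx
    simpa [L, Prod.ext_iff] using this
  obtain ⟨z, rfl⟩ := hxr
  refine ⟨π z, ?_, h _, h2.1, h2.2⟩
  intro h0
  exact hx0 (Subtype.ext h0)

end LA

namespace SLPair

/-- The extension step. -/
theorem extend (h : SLPair K π) {b₀ : V} {β₀ : Dual (ZMod p) V} (hb : B₁ K π b₀) (hβ : B₂ K π β₀)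
    (hc : β₀ b₀ ≠ 0) : SLPair K (π + (β₀ b₀)⁻¹ • β₀.smulRight b₀) := by
  have hπ₁ : ∀ x, (π + (β₀ b₀)⁻¹ • β₀.smulRight b₀) x = π x + ((β₀ b₀)⁻¹ * β₀ x) • b₀ := by
    intro x
    simp [smul_smul]
  refine ⟨?_, ?_⟩
  · intro x
    simp only [hπ₁, map_add, map_smul, hb.1, hβ.1, h.idem, smul_eq_mul, add_zero, zero_add,
      smul_zero]
    congr 2
    field_simp
  · intro x χ hx hχ hχx
    simp only [hπ₁] at hx hχ
    set c := β₀ b₀ with hcdef
    -- the decomposition
    set a := π x with hadef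
    set d := c⁻¹ * β₀ x with hddef
    set e := c⁻¹ * χ b₀ with hedef
    let α : Dual (ZMod p) V := χ.comp π
    have hαπ : ∀ y, α (π y) = α y := fun y => by simp [α, h.idem]
    have hαb : α b₀ = 0 := by simp [α, hb.1]
    have hχd : χ = α + e • β₀ := by
      ext y
      have := hχ y
      simp only [map_add, map_smul, smul_eq_mul] at this
      simp only [LinearMap.add_apply, LinearMap.smul_apply, smul_eq_mul, α, LinearMap.comp_apply, e]
      rw [← this]
      ring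
    have hπa : π a = a := h.idem x
    have hαa : α a + d * e * c = 0 := by
      have h1 : χ x = α a + e * β₀ x := by
        rw [hχd]
        simp only [LinearMap.add_apply, LinearMap.smul_apply, smul_eq_mul]
        simp [α, a, h.idem]
      rw [h1] at hχx
      have h2 : β₀ x = d * c := by
        simp only [d]
        field_simp
      rw [← hχx, h2]
      ring
    have hxd : x = a + d • b₀ := hx.symm
    rw [hxd, hχd]
    by_cases hd : d = 0
    · have h0 : α a = 0 := by simpa [hd] using hαa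
      have h1 : IsTv K a α := h.flag a α hπa hαπ h0
      have h2 : IsTv K a (e • β₀) := (hβ.2 a hπa).smul_right e
      simpa [hd] using h1.add_right h2
    by_cases he : e = 0
    · have h0 : α a = 0 := by simpa [he] using hαa
      have h1 : IsTv K a α := h.flag a α hπa hαπ h0
      have h2 : IsTv K (d • b₀) α := (hb.2 α hαπ).smul_left d
      simpa [he] using h1.add_left h2
    -- the generic case
    have h1 : IsTv K a β₀ := hβ.2 a hπa
    have h2 : IsTv K b₀ ((-(e * c)⁻¹) • α) := (hb.2 α hαπ).smul_right _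
    have h3 := (h1.conj_tv h2).smul_right e
    convert h3 using 1
    · have : ((-(e * c)⁻¹) • α) a = d := by
        simp only [LinearMap.smul_apply, smul_eq_mul]
        have : α a = - (d * e * c) := eq_neg_of_add_eq_zero_left hαa
        rw [this]
        field_simp
      rw [this]
    · ext y
      simp
      field_simp
      ring

theorem extend_range (h : SLPair K π) {b₀ : V} {β₀ : Dual (ZMod p) V} (hb : B₁ K π b₀)
    (hβ : B₂ K π β₀) (hc : β₀ b₀ ≠ 0) :
    LinearMap.range π < LinearMap.range (π + (β₀ b₀)⁻¹ • β₀.smulRight b₀) := by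
  have hπ₁ : ∀ x, (π + (β₀ b₀)⁻¹ • β₀.smulRight b₀) x = π x + ((β₀ b₀)⁻¹ * β₀ x) • b₀ := by
    intro x
    simp [smul_smul]
  refine lt_of_le_of_ne ?_ ?_
  · rintro _ ⟨y, rfl⟩
    refine ⟨π y, ?_⟩
    simp [hπ₁, hβ.1, h.idem]
  · intro heq
    have hb1 : b₀ ∈ LinearMap.range (π + (β₀ b₀)⁻¹ • β₀.smulRight b₀) :=
      ⟨b₀, by simp [hπ₁, hb.1, hc]⟩
    rw [← heq] at hb1
    obtain ⟨y, hy⟩ := hb1
    have h1 : π b₀ = b₀ := by rw [← hy, h.idem]
    have h2 : b₀ = 0 := by rw [← h1]; exact hb.1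
    apply hc
    rw [h2, map_zero]

/-- Lemma A. -/
theorem B₁_of (h : SLPair K π) {b : V} {χ₁ : Dual (ZMod p) V} (hb : π b = 0)
    (hχ₁ : ∀ y, χ₁ (π y) = χ₁ y) (hχ₁0 : χ₁ ≠ 0) (hbχ : IsTv K b χ₁) : B₁ K π b := by
  refine ⟨hb, fun χ hχ => ?_⟩
  obtain ⟨y₁, hy₁⟩ : ∃ y, χ₁ y ≠ 0 := by
    by_contra hc
    push Not at hc
    exact hχ₁0 (LinearMap.ext hc)
  set y₀ := π y₁ with hy₀
  have hy₀' : χ₁ y₀ ≠ 0 := by rwa [hy₀, hχ₁]
  have hπy₀ : π y₀ = y₀ := h.idem y₁
  set χ' := χ - (χ y₀ * (χ₁ y₀)⁻¹) • χ₁ with hχ'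
  have h1 : χ' y₀ = 0 := by
    simp only [hχ', LinearMap.sub_apply, LinearMap.smul_apply, smul_eq_mul]
    field_simp
    ring
  have h2 : ∀ y, χ' (π y) = χ' y := by
    intro y
    simp [hχ', hχ, hχ₁]
  have h3 : IsTv K y₀ χ' := h.flag y₀ χ' hπy₀ h2 h1
  have h4 : χ' b = 0 := by rw [← h2, hb, map_zero]
  have h5 : IsTv K b χ' := hbχ.R3 h3 h4 hy₀'
  have h6 := h5.add_right (hbχ.smul_right (χ y₀ * (χ₁ y₀)⁻¹))
  simpa [hχ'] using h6

/-- Lemma A dual. -/
theorem B₂_of (h : SLPair K π) {x₀ : V} {β : Dual (ZMod p) V} (hβ : ∀ y, β (π y) = 0)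
    (hx₀ : π x₀ = x₀) (hx₀0 : x₀ ≠ 0) (hxβ : IsTv K x₀ β) : B₂ K π β := by
  refine ⟨hβ, fun x hx => ?_⟩
  obtain ⟨χ₀, hχ₀, hne⟩ := exists_form_ne h.idem hx₀ hx₀0
  set x' := x - (χ₀ x * (χ₀ x₀)⁻¹) • x₀ with hx'
  have hπx' : π x' = x' := by simp [hx', hx, hx₀]
  have h1 : χ₀ x' = 0 := by
    simp only [hx', map_sub, map_smul, smul_eq_mul]
    field_simp
    ring
  have h2 : IsTv K x' χ₀ := h.flag x' χ₀ hπx' hχ₀ h1
  have h3 : β x' = 0 := by rw [← hπx']; exact hβ x'
  have h4 := hxβ.conj_tv h2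
  rw [h3, zero_smul, sub_zero] at h4
  have h5 : IsTv K (χ₀ x₀ • x') β := by
    have := h4.sub_left hxβ
    simpa using this
  have h6 : IsTv K x' β := h5.of_smul_left hne
  have h7 := h6.add_left (hxβ.smul_left (χ₀ x * (χ₀ x₀)⁻¹))
  simpa [hx'] using h7

/-- Claim 1. -/
theorem claim1 [Finite V] (h : SLPair K π) (hrk : 3 ≤ finrank (ZMod p) (LinearMap.range π)) {u : V}
    {θ : Dual (ZMod p) V} (huθ : IsTv K u θ) {y₀ : V} (hy₀ : θ (π y₀) ≠ 0) :
    B₁ K π (u - π u) := by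
  obtain ⟨χ, hχ0, hχ, h1, h2⟩ := exists_form_kill h.idem hrk (π u) (π y₀)
  have h3 : IsTv K (π y₀) χ := h.flag _ χ (h.idem y₀) hχ h2
  have h4 : χ u = 0 := by rw [← hχ]; exact h1
  have h5 : IsTv K u χ := huθ.R3 h3 h4 hy₀
  have h6 : IsTv K (π u) χ := h.flag _ χ (h.idem u) hχ h1
  have h7 : IsTv K (u - π u) χ := h5.sub_left h6
  exact h.B₁_of (by simp [h.idem]) hχ hχ0 h7

/-- Claim 1 dual. -/
theorem claim2 [Finite V] (h : SLPair K π) (hrk : 3 ≤ finrank (ZMod p) (LinearMap.range π)) {u : V}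
    {θ : Dual (ZMod p) V} (huθ : IsTv K u θ) (ha : π u ≠ 0) :
    B₂ K π (θ - θ.comp π) := by
  obtain ⟨χ₀, hχ₀, hne⟩ := exists_form_ne h.idem (h.idem u) ha
  obtain ⟨x, hx0, hx, h1, h2⟩ := exists_vec_kill h.idem hrk χ₀ θ
  have h3 : IsTv K x χ₀ := h.flag x χ₀ hx hχ₀ h1
  have h4 := huθ.conj_tv h3
  rw [h2, zero_smul, sub_zero] at h4
  have h5 : IsTv K (χ₀ u • x) θ := by
    have := h4.sub_left huθ
    simpa using this
  have h6 : χ₀ u ≠ 0 := by rwa [← hχ₀]
  have h7 : IsTv K x θ := h5.of_smul_left h6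
  have h8 : IsTv K x (θ.comp π) :=
    h.flag x _ hx (fun y => by simp [h.idem]) (by simp [hx, h2])
  have h9 := h7.sub_right h8
  exact h.B₂_of (fun y => by simp [h.idem]) hx hx0 h9

end SLPair

/-- The maximal linear pair. -/
theorem sl_max [Finite V] (hHyp : Hyp K)
    (hstart : ∃ π : V →ₗ[ZMod p] V, SLPair K π ∧ 3 ≤ finrank (ZMod p) (LinearMap.range π)) :
    ∃ π : V →ₗ[ZMod p] V, SLPair K π ∧ 3 ≤ finrank (ZMod p) (LinearMap.range π) ∧
      ∀ (u : V) (θ : Dual (ZMod p) V), u ≠ 0 → θ ≠ 0 → IsTv K u θ →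
        (π u = u ∧ ∀ y, θ (π y) = θ y) ∨ (π u = 0 ∧ ∀ y, θ (π y) = 0) := by
  let S : Set (Submodule (ZMod p) V) :=
    {W | ∃ π, SLPair K π ∧ 3 ≤ finrank (ZMod p) (LinearMap.range π) ∧ W = LinearMap.range π}
  have hS : S.Nonempty := by
    obtain ⟨π, h1, h2⟩ := hstart
    exact ⟨_, π, h1, h2, rfl⟩
  obtain ⟨W, hW⟩ := (Set.toFinite S).exists_maximal hS
  obtain ⟨π, h, hrk, hWπ⟩ := hW.prop
  have : Module.Finite (ZMod p) V := Module.Finite.of_finite
  -- `B₁ ⊥ B₂`
  have hperp : ∀ b β, B₁ K π b → B₂ K π β → β b = 0 := by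
    intro b β hb hβ
    by_contra hc
    have h1 := h.extend hb hβ hc
    have h2 := h.extend_range hb hβ hc
    have h3 : 3 ≤ finrank (ZMod p) (LinearMap.range (π + (β b)⁻¹ • β.smulRight b)) := by
      have := Submodule.finrank_lt_finrank_of_lt h2
      omega
    rw [← hWπ] at h2
    exact absurd (hW.le_of_ge ⟨_, h1, h3, rfl⟩ h2.le) (not_le_of_gt h2)
  -- `B₁ = 0`
  have hB₁ : ∀ b, B₁ K π b → b = 0 := by
    intro b hb
    by_contra hb0
    -- a nonzero form on the range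
    obtain ⟨x, hx0, hx, -, -⟩ := exists_vec_kill h.idem hrk (0 : Dual (ZMod p) V) 0
    obtain ⟨χ, hχ, hne⟩ := exists_form_ne h.idem hx hx0
    have hχ0 : χ ≠ 0 := by
      rintro rfl
      simp at hne
    obtain ⟨u, θ, huθ, h1, h2⟩ := hHyp b χ hb0 hχ0 (hb.2 χ hχ)
    have ha : π u ≠ 0 := by
      intro h0
      apply h1
      rw [← hχ, h0, map_zero]
    have h3 := h.claim2 hrk huθ ha
    apply h2
    have := hperp b _ hb h3
    simpa [hb.1] using this
  -- `B₂ = 0`
  have hB₂ : ∀ β, B₂ K π β → β = 0 := by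
    intro β hβ
    by_contra hβ0
    obtain ⟨x, hx0, hx, -, -⟩ := exists_vec_kill h.idem hrk (0 : Dual (ZMod p) V) 0
    obtain ⟨u, θ, huθ, h1, h2⟩ := hHyp x β hx0 hβ0 (hβ.2 x hx)
    have hθ : θ (π x) ≠ 0 := by rwa [hx]
    have h3 := h.claim1 hrk huθ hθ
    apply h1
    have := hperp _ β h3 hβ
    simpa [hβ.1] using this
  refine ⟨π, h, hrk, fun u θ hu0 hθ0 huθ => ?_⟩
  -- the two vanishing statements
  have hc1 : (∃ y, θ (π y) ≠ 0) → u - π u = 0 := fun ⟨y, hy⟩ => hB₁ _ (h.claim1 hrk huθ hy)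
  have hc2 : π u ≠ 0 → θ - θ.comp π = 0 := fun ha => hB₂ _ (h.claim2 hrk huθ ha)
  by_cases ha : π u = 0
  · refine Or.inr ⟨ha, fun y => ?_⟩
    by_contra hy
    have := hc1 ⟨y, hy⟩
    rw [ha, sub_zero] at this
    exact hu0 this
  · have h1 := hc2 ha
    have h2 : ∀ y, θ (π y) = θ y := fun y => by
      have := congrArg (fun f : Dual (ZMod p) V => f y) h1
      simp only [LinearMap.sub_apply, LinearMap.comp_apply, LinearMap.zero_apply] at this
      exact (sub_eq_zero.mp this).symm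
    refine Or.inl ⟨?_, h2⟩
    obtain ⟨y, hy⟩ : ∃ y, θ y ≠ 0 := by
      by_contra hc
      push Not at hc
      exact hθ0 (LinearMap.ext hc)
    have := hc1 ⟨y, by rwa [h2]⟩
    exact (sub_eq_zero.mp this).symm

end Cfsg.Agent.Lib.McLH39
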