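import Mathlib
import Cfsg.Agent.Lib.McLH39SL

/-!
# The dichotomy for groups generated by transvections
-/

set_option autoImplicit false

namespace Cfsg.Agent.Lib.McLH39

open Module

variable {p : ℕ} [Fact p.Prime] {V : Type*} [AddCommGroup V] [Module (ZMod p) V]
variable {K : Subgroup (V ≃ₗ[ZMod p] V)}

section hyp

variable {v w : V} {φ ψ : Dual (ZMod p) V}

/-- On a hyperbolic plane every flag is of the form `(x, c Θ x)`. -/
theorem hyp_flag_prop (hv : IsTv K v φ) (hw : IsTv K w ψ) (ha : φ w ≠ 0) (hb : ψ v ≠ 0) {x : V}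
    {χ : Dual (ZMod p) V} (hx : πP v w φ ψ x = x) (hχ : ∀ y, χ (πP v w φ ψ y) = χ y)
    (hχx : χ x = 0) (hx0 : x ≠ 0) : ∃ c : ZMod p, χ = c • ΘP v φ ψ x := by
  have hχ' : ∀ y, χ y = (ψ v)⁻¹ * ψ y * χ v + (φ w)⁻¹ * φ y * χ w := by
    intro y
    rw [← hχ, πP_apply]
    simp
  have key : ψ x * χ v * φ w + φ x * χ w * ψ v = 0 := by
    have := hχ' x
    rw [hχx] at this
    field_simp at this
    linear_combination -this
  by_cases hs : ψ x = 0
  · have hφx : φ x ≠ 0 := by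
      intro h0
      apply hx0
      rw [← hx, πP_apply, hs, h0]
      simp
    refine ⟨-(χ v) * (φ x)⁻¹, ?_⟩
    ext y
    rw [hχ' y]
    have hχw : χ w = 0 := by
      rw [hs] at key
      simpa [hφx, hb] using key
    simp only [LinearMap.smul_apply, ΘP_apply_apply, smul_eq_mul, hs, hχw]
    field_simp
    ring
  · refine ⟨χ w * (φ w)⁻¹ * ψ v * (ψ x)⁻¹, ?_⟩
    ext y
    rw [hχ' y]
    simp only [LinearMap.smul_apply, ΘP_apply_apply, smul_eq_mul]
    field_simp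
    linear_combination (ψ y) * key

theorem slPair_hyp (hv : IsTv K v φ) (hw : IsTv K w ψ) (ha : φ w ≠ 0) (hb : ψ v ≠ 0) :
    SLPair K (πP v w φ ψ) := by
  have hP := spPair_hyp hv hw ha hb
  refine ⟨hP.idem, fun x χ hx hχ hχx => ?_⟩
  by_cases hx0 : x = 0
  · subst hx0
    exact IsTv.zero_left K χ
  obtain ⟨c, rfl⟩ := hyp_flag_prop hv hw ha hb hx hχ hχx hx0
  exact hP.flag' hx c

end hyp

theorem sl_start [Finite V] (h2 : (2 : ZMod p) ≠ 0) (hHyp : Hyp K) {v w : V}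
    {φ ψ : Dual (ZMod p) V} (hv : v ≠ 0) (hφ : φ ≠ 0) (hψ : ψ ≠ 0)
    (hvφ : IsTv K v φ) (hwψ : IsTv K w ψ) (h1 : φ w ≠ 0) (h0 : ψ v = 0) :
    ∃ π : V →ₗ[ZMod p] V, SLPair K π ∧ 3 ≤ finrank (ZMod p) (LinearMap.range π) := by
  have : Module.Finite (ZMod p) V := Module.Finite.of_finite
  have hvψ : IsTv K v ψ := hvφ.R3 hwψ h0 h1
  obtain ⟨x, χ, hxχ, hφx, hχv⟩ := hHyp v φ hv hφ hvφ
  set πQ := πP v x φ χ with hπQ
  set Θ := ΘP v φ χ with hΘ
  have hP : SPPair K πQ Θ := spPair_hyp hvφ hxχ hφx hχv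
  have hL : SLPair K πQ := slPair_hyp hvφ hxχ hφx hχv
  have hφv : φ v = 0 := hvφ.1
  have hψw : ψ w = 0 := hwψ.1
  have hχx : χ x = 0 := hxχ.1
  set κ := ψ x * (φ x)⁻¹ with hκ
  set β := ψ - κ • φ with hβ
  have hβv : β v = 0 := by simp [β, h0, hφv]
  have hβx : β x = 0 := by
    simp only [β, κ, LinearMap.sub_apply, LinearMap.smul_apply, smul_eq_mul]
    field_simp
    ring
  have hβπ : ∀ y, β (πQ y) = 0 := by
    intro y
    simp [πQ, πP_apply, hβv, hβx]
  have hβ0 : β ≠ 0 := by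
    intro h3
    have h4 : ψ = κ • φ := sub_eq_zero.mp h3
    have h5 : κ * φ w = 0 := by
      have := congrArg (fun f : Dual (ZMod p) V => f w) h4
      simpa [hψw] using this.symm
    have h6 : κ = 0 := by simpa [h1] using h5
    apply hψ
    rw [h4, h6, zero_smul]
  have hvβ : IsTv K v β := hvψ.sub_right (hvφ.smul_right κ)
  have hπv : πQ v = v := πP_left v x hφv hχv
  have hπx : πQ x = x := πP_right v x hχx hφx
  have hB₂ : B₂ K πQ β := hL.B₂_of hβπ hπv hv hvβ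
  obtain ⟨u, θ, huθ, hβu, hθv⟩ := hHyp v β hv hβ0 hvβ
  set a := πQ u with ha
  set b := u - a with hb
  have hπa : πQ a = a := hP.idem u
  have hπb : πQ b = 0 := by simp [b, hπa, a]
  have hud : a + b = u := by simp [b]
  have hβb : β b ≠ 0 := by
    simp only [b, map_sub, a, hβπ, sub_zero]
    exact hβu
  -- a nonzero form of the plane with center `b`
  obtain ⟨χ₁, hχ₁, hχ₁0, hbχ₁⟩ : ∃ χ₁ : Dual (ZMod p) V, (∀ y, χ₁ (πQ y) = χ₁ y) ∧ χ₁ ≠ 0 ∧
      IsTv K b χ₁ := by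
    by_cases ha0 : a = 0
    · refine ⟨φ, fun y => ?_, hφ, ?_⟩
      · simp [πQ, πP_apply, hφv]
        field_simp
      · have h3 : φ u = 0 := by
          have : φ (πQ u) = φ u := by
            simp [πQ, πP_apply, hφv]
            field_simp
          rw [← this]
          change φ a = 0
          rw [ha0, map_zero]
        have h4 : IsTv K u φ := huθ.R3 hvφ h3 hθv
        simpa [b, ha0] using h4
    have hΘa : Θ a ≠ 0 := hP.ne_zero_of hπa ha0
    by_cases hθa : θ a = 0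
    · -- the form `α` is proportional to `Θ a`
      let α : Dual (ZMod p) V := θ.comp πQ
      have hαπ : ∀ y, α (πQ y) = α y := fun y => by simp [α, hP.idem]
      have hαa : α a = 0 := by simp [α, hπa, hθa]
      have hα0 : α ≠ 0 := by
        intro h3
        have : α v = 0 := by rw [h3]; rfl
        apply hθv
        simpa [α, hπv] using this
      obtain ⟨c, hc⟩ := hyp_flag_prop hvφ hxχ hφx hχv hπa hαπ hαa ha0
      set γ := θ - α with hγ
      have hγπ : ∀ y, γ (πQ y) = 0 := by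
        intro y
        simp [γ, α, hP.idem]
      have hS : IsTv K (a + b) (c • Θ a + γ) := by
        have : c • Θ a + γ = θ := by
          rw [← hΘ] at hc
          rw [← hc]
          simp [γ]
        rw [this, hud]
        exact huθ
      have hbγ : IsTv K b γ := hP.zlemma h2 hπa ha0 hπb hγπ hS
      have haγ : IsTv K a γ := (hB₂.2 a hπa).R3 hbγ (by rw [← hπa]; exact hγπ a) hβb
      have huγ : IsTv K u γ := by
        rw [← hud]
        exact haγ.add_left hbγ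
      have huα : IsTv K u α := by
        have := huθ.sub_right huγ
        simpa [γ] using this
      have haα : IsTv K a α := hL.flag a α hπa hαπ hαa
      exact ⟨α, hαπ, hα0, huα.sub_left haα⟩
    · have h3 : IsTv K a (Θ a) := hP.flag1 hπa
      have h4 : Θ a u = 0 := by
        rw [← hP.right, hP.alt]
      have h5 : IsTv K u (Θ a) := huθ.R3 h3 h4 hθa
      exact ⟨Θ a, hP.right _, hΘa, h5.sub_left h3⟩
  have hB₁ : B₁ K πQ b := hL.B₁_of hπb hχ₁ hχ₁0 hbχ₁
  refine ⟨_, hL.extend hB₁ hB₂ hβb, ?_⟩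
  have hlt := hL.extend_range hB₁ hB₂ hβb
  have h3 := Submodule.finrank_lt_finrank_of_lt hlt
  have h4 : finrank (ZMod p) (Submodule.span (ZMod p) {v}) = 1 := finrank_span_singleton hv
  have h5 : Submodule.span (ZMod p) {v} < LinearMap.range πQ := by
    refine lt_of_le_of_ne ?_ ?_
    · rw [Submodule.span_singleton_le_iff_mem]
      exact ⟨v, hπv⟩
    · intro heq
      have : x ∈ Submodule.span (ZMod p) {v} := by
        rw [heq]
        exact ⟨x, hπx⟩
      obtain ⟨c, hc⟩ := Submodule.mem_span_singleton.mp this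
      apply hφx
      rw [← hc]
      simp [hφv]
  have h6 := Submodule.finrank_lt_finrank_of_lt h5
  omega

/-- The dichotomy. -/
theorem core [Finite V] (h2 : (2 : ZMod p) ≠ 0) (hHyp : Hyp K) :
    (∃ (π : V →ₗ[ZMod p] V) (Θ : V →ₗ[ZMod p] Dual (ZMod p) V), SPPair K π Θ ∧
      (∀ (u : V) (θ : Dual (ZMod p) V), u ≠ 0 → θ ≠ 0 → IsTv K u θ →
        (π u = u ∧ ∃ κ : ZMod p, κ ≠ 0 ∧ θ = κ • Θ u) ∨ (π u = 0 ∧ ∀ y, θ (π y) = 0)) ∧
      ((∃ (v : V) (φ : Dual (ZMod p) V), v ≠ 0 ∧ φ ≠ 0 ∧ IsTv K v φ) → ∃ x, π x ≠ 0)) ∨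
    (∃ π : V →ₗ[ZMod p] V, SLPair K π ∧ 3 ≤ finrank (ZMod p) (LinearMap.range π) ∧
      ∀ (u : V) (θ : Dual (ZMod p) V), u ≠ 0 → θ ≠ 0 → IsTv K u θ →
        (π u = u ∧ ∀ y, θ (π y) = θ y) ∨ (π u = 0 ∧ ∀ y, θ (π y) = 0)) := by
  by_cases hNU : NoUnip K
  · exact Or.inl (sp_max h2 hHyp hNU)
  · right
    simp only [NoUnip] at hNU
    push Not at hNU
    obtain ⟨v, φ, w, ψ, hv, hφ, hw, hψ, hvφ, hwψ, h1, h0⟩ := hNU
    exact sl_max hHyp (sl_start h2 hHyp hv hφ hψ hvφ hwψ h1 h0)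

end Cfsg.Agent.Lib.McLH39
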