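import Mathlib
import Cfsg.Agent.Lib.McLH39Core

/-!
# Generation of the isometry group by flag transvections
-/

set_option autoImplicit false

namespace Cfsg.Agent.Lib.McLH39

open Module

variable {p : ℕ} [Fact p.Prime] {V : Type*} [AddCommGroup V] [Module (ZMod p) V]
variable {K : Subgroup (V ≃ₗ[ZMod p] V)} {π : V →ₗ[ZMod p] V}
  {Θ : V →ₗ[ZMod p] Dual (ZMod p) V}

/-- An isometry of the range, trivial on the kernel. -/
structure IsoF (π : V →ₗ[ZMod p] V) (Θ : V →ₗ[ZMod p] Dual (ZMod p) V) (f : V ≃ₗ[ZMod p] V) :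
    Prop where
  comm : ∀ x, π (f x) = f (π x)
  fix : ∀ x, π x = 0 → f x = x
  pres : ∀ x y, Θ (f x) (f y) = Θ x y

namespace IsoF

theorem one : IsoF π Θ 1 := ⟨fun _ => rfl, fun _ _ => rfl, fun _ _ => rfl⟩

theorem mul {f g : V ≃ₗ[ZMod p] V} (hf : IsoF π Θ f) (hg : IsoF π Θ g) : IsoF π Θ (f * g) where
  comm x := by simp only [LinearEquiv.mul_apply, hf.comm, hg.comm]
  fix x hx := by simp only [LinearEquiv.mul_apply, hg.fix x hx, hf.fix x hx]
  pres x y := by simp only [LinearEquiv.mul_apply, hf.pres, hg.pres]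

theorem inv {f : V ≃ₗ[ZMod p] V} (hf : IsoF π Θ f) : IsoF π Θ f⁻¹ where
  comm x := by
    have h1 : f (π (f⁻¹ x)) = π x := by
      rw [← hf.comm]
      simp
    rw [← h1]
    simp
  fix x hx := by
    have h1 := hf.fix x hx
    rw [LinearEquiv.coe_inv, LinearEquiv.symm_apply_eq, h1]
  pres x y := by
    rw [← hf.pres (f⁻¹ x) (f⁻¹ y)]
    simp

end IsoF

namespace SPPair

/-- Flag transvections are isometries. -/
theorem exists_flag_iso (h : SPPair K π Θ) {z : V} (hz : π z = z) (t : ZMod p) :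
    ∃ g ∈ K, IsoF π Θ g ∧ ∀ x, g x = x + (t * Θ z x) • z := by
  obtain ⟨_, g, hgK, hg⟩ := h.flag' hz t
  have hg' : ∀ x, g x = x + (t * Θ z x) • z := fun x => by
    rw [hg]
    simp
  refine ⟨g, hgK, ⟨?_, ?_, ?_⟩, hg'⟩
  · intro x
    rw [hg', hg']
    simp [hz, h.right]
  · intro x hx
    rw [hg', h.apply_of_ker hx]
    simp
  · intro x y
    rw [hg', hg']
    simp only [map_add, map_smul, LinearMap.add_apply, LinearMap.smul_apply, smul_eq_mul, h.alt,
      h.skew x z]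
    ring

theorem exists_iso_step (h : SPPair K π Θ) {x x' : V} (hx : π x = x) (hx' : π x' = x')
    (hne : Θ x x' ≠ 0) : ∃ g ∈ K, IsoF π Θ g ∧ g x = x' := by
  set z := x' - x with hzd
  have hz : π z = z := by simp [z, hx, hx']
  have e : Θ z x = Θ x' x := by simp [z, h.alt]
  have e' : Θ x' x ≠ 0 := by
    rw [h.skew]
    exact neg_ne_zero.mpr hne
  obtain ⟨g, hgK, hiso, hg⟩ := h.exists_flag_iso hz (Θ z x)⁻¹
  refine ⟨g, hgK, hiso, ?_⟩
  rw [hg, inv_mul_cancel₀ (by rwa [e]), one_smul]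
  simp [z]

theorem exists_iso_vec (h : SPPair K π Θ) {x x' : V} (hx : π x = x) (hx' : π x' = x')
    (hx0 : x ≠ 0) (hx0' : x' ≠ 0) : ∃ g ∈ K, IsoF π Θ g ∧ g x = x' := by
  obtain ⟨y, hy1, hy2⟩ := exists_ne_ne _ _ (h.ne_zero_of hx hx0) (h.ne_zero_of hx' hx0')
  obtain ⟨g₁, hg₁K, hg₁, e₁⟩ := h.exists_iso_step hx (h.idem y) (by rwa [h.right])
  obtain ⟨g₂, hg₂K, hg₂, e₂⟩ := h.exists_iso_step (h.idem y) hx' (by
    rw [h.skew, h.right]
    exact neg_ne_zero.mpr hy2)
  refine ⟨g₂ * g₁, K.mul_mem hg₂K hg₁K, hg₂.mul hg₁, ?_⟩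
  rw [LinearEquiv.mul_apply, e₁, e₂]

theorem exists_iso_fix (h : SPPair K π Θ) {x y y' : V} (hy : π y = y) (hy' : π y' = y')
    (hxy : Θ x y = Θ x y') (hne : Θ y y' ≠ 0) : ∃ g ∈ K, IsoF π Θ g ∧ g x = x ∧ g y = y' := by
  set z := y' - y with hzd
  have hz : π z = z := by simp [z, hy, hy']
  have e0 : Θ z x = 0 := by
    simp only [z, map_sub, LinearMap.sub_apply]
    rw [h.skew y' x, h.skew y x, hxy]
    ring
  have e : Θ z y = Θ y' y := by simp [z, h.alt]
  have e' : Θ y' y ≠ 0 := by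
    rw [h.skew]
    exact neg_ne_zero.mpr hne
  obtain ⟨g, hgK, hiso, hg⟩ := h.exists_flag_iso hz (Θ z y)⁻¹
  refine ⟨g, hgK, hiso, ?_, ?_⟩
  · rw [hg, e0]
    simp
  · rw [hg, inv_mul_cancel₀ (by rwa [e]), one_smul]
    simp [z]

theorem exists_iso_pair (h : SPPair K π Θ) {x y y' : V} (hx : π x = x) (hy : π y = y)
    (hy' : π y' = y') (hxy : Θ x y = 1) (hxy' : Θ x y' = 1) :
    ∃ g ∈ K, IsoF π Θ g ∧ g x = x ∧ g y = y' := by
  by_cases hne : Θ y y' = 0
  · have hy2 : π (y + x) = y + x := by simp [hx, hy]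
    have e1 : Θ x (y + x) = 1 := by simp [hxy, h.alt]
    have e2 : Θ y (y + x) ≠ 0 := by
      simp only [map_add, h.alt, zero_add]
      rw [h.skew, hxy]
      simp
    have e3 : Θ (y + x) y' ≠ 0 := by
      simp [hne, hxy']
    obtain ⟨g₁, hg₁K, hg₁, e₁, e₁'⟩ := h.exists_iso_fix hy hy2 (hxy.trans e1.symm) e2
    obtain ⟨g₂, hg₂K, hg₂, e₂, e₂'⟩ := h.exists_iso_fix hy2 hy' (e1.trans hxy'.symm) e3
    refine ⟨g₂ * g₁, K.mul_mem hg₂K hg₁K, hg₂.mul hg₁, ?_, ?_⟩
    · rw [LinearEquiv.mul_apply, e₁, e₂]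
    · rw [LinearEquiv.mul_apply, e₁', e₂']
  · exact h.exists_iso_fix hy hy' (hxy.trans hxy'.symm) hne

end SPPair

/-- The projection onto the orthogonal complement of a hyperbolic pair inside the range. -/
noncomputable def πSub (π : V →ₗ[ZMod p] V) (Θ : V →ₗ[ZMod p] Dual (ZMod p) V) (x y : V) :
    V →ₗ[ZMod p] V :=
  π - (Θ.flip y).smulRight x - (Θ x).smulRight y

theorem πSub_apply (π : V →ₗ[ZMod p] V) (Θ : V →ₗ[ZMod p] Dual (ZMod p) V) (x y w : V) :
    πSub π Θ x y w = π w - Θ w y • x - Θ x w • y := by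
  simp [πSub]

section sub

variable {x y : V}

theorem SPPair.sub_aux (h : SPPair K π Θ) (hx : π x = x) (hy : π y = y) (hxy : Θ x y = 1) :
    (∀ w, Θ (πSub π Θ x y w) x = 0) ∧ (∀ w, Θ (πSub π Θ x y w) y = 0) ∧
      (∀ w, π (πSub π Θ x y w) = πSub π Θ x y w) ∧
      (∀ w z, Θ (πSub π Θ x y w) (πSub π Θ x y z) = Θ (πSub π Θ x y w) z) := by
  have hyx : Θ y x = -1 := by rw [h.skew, hxy]
  have e1 : ∀ w, Θ (πSub π Θ x y w) x = 0 := by
    intro w
    rw [πSub_apply]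
    simp only [map_sub, map_smul, LinearMap.sub_apply, LinearMap.smul_apply, smul_eq_mul, h.left,
      h.alt, hyx]
    rw [h.skew w x]
    ring
  have e2 : ∀ w, Θ (πSub π Θ x y w) y = 0 := by
    intro w
    rw [πSub_apply]
    simp only [map_sub, map_smul, LinearMap.sub_apply, LinearMap.smul_apply, smul_eq_mul, h.left,
      h.alt, hxy]
    ring
  refine ⟨e1, e2, ?_, ?_⟩
  · intro w
    rw [πSub_apply]
    simp [h.idem, hx, hy]
  · intro w z
    rw [πSub_apply π Θ x y z]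
    simp only [map_sub, map_smul, smul_eq_mul, e1, e2, mul_zero, sub_zero, h.right]

theorem SPPair.sub (h : SPPair K π Θ) (hx : π x = x) (hy : π y = y) (hxy : Θ x y = 1) :
    SPPair K (πSub π Θ x y) (Θ.comp (πSub π Θ x y)) := by
  obtain ⟨e1, e2, e3, e4⟩ := h.sub_aux hx hy hxy
  have idem : ∀ w, πSub π Θ x y (πSub π Θ x y w) = πSub π Θ x y w := by
    intro w
    rw [πSub_apply π Θ x y (πSub π Θ x y w), e3, e2, h.skew x, e1]
    simp
  refine ⟨idem, ?_, ?_, ?_, ?_, ?_⟩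
  · intro w
    simp [idem]
  · intro w z
    simp [e4]
  · intro w
    simp only [LinearMap.comp_apply]
    rw [← e4, h.alt]
  · intro w hw
    have h1 : Θ (πSub π Θ x y w) = 0 := hw
    have h2 := h.nondeg _ h1
    rwa [e3] at h2
  · intro w
    exact h.flag1 (e3 w)

theorem IsoF.sub (h : SPPair K π Θ) {f : V ≃ₗ[ZMod p] V} (hf : IsoF π Θ f) (hx : π x = x)
    (hy : π y = y) (hxy : Θ x y = 1) (hfx : f x = x) (hfy : f y = y) :
    IsoF (πSub π Θ x y) (Θ.comp (πSub π Θ x y)) f := by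
  have hc : ∀ z, πSub π Θ x y (f z) = f (πSub π Θ x y z) := by
    intro z
    have e1 : Θ (f z) y = Θ z y := by
      conv_lhs => rw [← hfy]
      exact hf.pres z y
    have e2 : Θ x (f z) = Θ x z := by
      conv_lhs => rw [← hfx]
      exact hf.pres x z
    rw [πSub_apply, πSub_apply, hf.comm, e1, e2]
    simp [hfx, hfy]
  refine ⟨hc, ?_, ?_⟩
  · intro z hz
    rw [πSub_apply] at hz
    have h1 : π z = Θ z y • x + Θ x z • y := by
      have := sub_eq_zero.mp hz
      rw [sub_eq_iff_eq_add] at this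
      rw [this, add_comm]
    have h2 : f (π z) = π z := by
      rw [h1]
      simp [hfx, hfy]
    have h3 : π (z - π z) = 0 := by simp [h.idem]
    have h4 := hf.fix _ h3
    rw [map_sub, h2] at h4
    exact sub_left_injective h4
  · intro u v
    simp only [LinearMap.comp_apply, hc]
    exact hf.pres _ _

end sub

/-- Every isometry of the range which is trivial on the kernel lies in `K`. -/
theorem sp_gen [Finite V] (h : SPPair K π Θ) {f : V ≃ₗ[ZMod p] V} (hf : IsoF π Θ f) : f ∈ K := by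
  have : Module.Finite (ZMod p) V := Module.Finite.of_finite
  induction hn : finrank (ZMod p) (LinearMap.range π) using Nat.strong_induction_on
    generalizing π Θ f with
  | _ n ih =>
  by_cases hπ : ∀ x, π x = 0
  · have : f = 1 := by
      ext x
      exact hf.fix x (hπ x)
    rw [this]
    exact K.one_mem
  push Not at hπ
  obtain ⟨x₀, hx₀⟩ := hπ
  set x := π x₀ with hxd
  have hx : π x = x := h.idem x₀
  obtain ⟨z, hz⟩ : ∃ z, Θ x z ≠ 0 := by
    by_contra hc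
    push Not at hc
    exact h.ne_zero_of hx hx₀ (LinearMap.ext hc)
  set y := (Θ x z)⁻¹ • π z with hyd
  have hy : π y = y := by simp [y, h.idem]
  have hxy : Θ x y = 1 := by
    simp [y, h.right, hz]
  have hfx : π (f x) = f x := by rw [hf.comm, hx]
  have hfy : π (f y) = f y := by rw [hf.comm, hy]
  have hfx0 : f x ≠ 0 := by simpa using hx₀
  obtain ⟨g₁, hg₁K, hg₁, e₁⟩ := h.exists_iso_vec hfx hx hfx0 hx₀
  have hy₁ : π (g₁ (f y)) = g₁ (f y) := by rw [hg₁.comm, hfy]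
  have hxy₁ : Θ x (g₁ (f y)) = 1 := by
    conv_lhs => rw [← e₁]
    rw [hg₁.pres, hf.pres, hxy]
  obtain ⟨g₂, hg₂K, hg₂, e₂, e₂'⟩ := h.exists_iso_pair hx hy₁ hy hxy₁ hxy
  set f' := g₂ * g₁ * f with hf'
  have hf'iso : IsoF π Θ f' := (hg₂.mul hg₁).mul hf
  have hf'x : f' x = x := by
    simp only [hf', LinearEquiv.mul_apply, e₁, e₂]
  have hf'y : f' y = y := by
    simp only [hf', LinearEquiv.mul_apply, e₂']
  have hS := h.sub hx hy hxy
  have hIso := IsoF.sub h hf'iso hx hy hxy hf'x hf'y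
  obtain ⟨e1, e2, e3, e4⟩ := h.sub_aux hx hy hxy
  have hlt : LinearMap.range (πSub π Θ x y) < LinearMap.range π := by
    refine lt_of_le_of_ne ?_ ?_
    · rintro _ ⟨w, rfl⟩
      exact ⟨_, e3 w⟩
    · intro heq
      have hxr : x ∈ LinearMap.range (πSub π Θ x y) := by
        rw [heq]
        exact ⟨x₀, rfl⟩
      obtain ⟨w, hw⟩ := hxr
      have h1 : πSub π Θ x y x = x := by
        have h2 := hS.idem w
        rwa [hw] at h2
      rw [πSub_apply, hx, hxy, h.alt] at h1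
      apply hx₀
      rw [← h1]
      simp
  have hf'K : f' ∈ K := ih _ (by rw [← hn]; exact Submodule.finrank_lt_finrank_of_lt hlt) hS hIso rfl
  have : f = g₁⁻¹ * g₂⁻¹ * f' := by
    simp only [hf']
    group
  rw [this]
  exact K.mul_mem (K.mul_mem (K.inv_mem hg₁K) (K.inv_mem hg₂K)) hf'K

end Cfsg.Agent.Lib.McLH39
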