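import Mathlib
import Cfsg.Agent.Lib.McLH39Gen
import Cfsg.Agent.Lib.SLGen

/-!
# The image of a transvection group on the range of its idempotent
-/

set_option autoImplicit false

namespace Cfsg.Agent.Lib.McLH39

open Module Matrix

variable {p : ℕ} [Fact p.Prime] {V : Type*} [AddCommGroup V] [Module (ZMod p) V]
variable {K : Subgroup (V ≃ₗ[ZMod p] V)} {π : V →ₗ[ZMod p] V}
  {Θ : V →ₗ[ZMod p] Dual (ZMod p) V}

/-- Restriction to an invariant subspace. -/
noncomputable def rho (K : Subgroup (V ≃ₗ[ZMod p] V)) (U : Submodule (ZMod p) V)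
    (hK : ∀ g : ↥K, U.map (((g : V ≃ₗ[ZMod p] V)) : V →ₗ[ZMod p] V) = U) :
    ↥K →* (↥U ≃ₗ[ZMod p] ↥U) where
  toFun g := (g : V ≃ₗ[ZMod p] V).ofSubmodules U U (hK g)
  map_one' := by
    ext x
    simp
  map_mul' a b := by
    ext x
    simp

theorem rho_apply (K : Subgroup (V ≃ₗ[ZMod p] V)) (U : Submodule (ZMod p) V)
    (hK : ∀ g : ↥K, U.map (((g : V ≃ₗ[ZMod p] V)) : V →ₗ[ZMod p] V) = U) (g : ↥K) (x : ↥U) :
    ((rho K U hK g x : ↥U) : V) = (g : V ≃ₗ[ZMod p] V) (x : V) := rfl

section ext

variable (hidem : ∀ x, π (π x) = π x)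

/-- Extending a linear map of the range by the identity on the kernel. -/
noncomputable def extLin (f : ↥(LinearMap.range π) →ₗ[ZMod p] ↥(LinearMap.range π)) :
    V →ₗ[ZMod p] V :=
  (LinearMap.range π).subtype ∘ₗ f ∘ₗ π.rangeRestrict + (LinearMap.id - π)

theorem extLin_apply (f : ↥(LinearMap.range π) →ₗ[ZMod p] ↥(LinearMap.range π)) (x : V) :
    extLin f x = (f (π.rangeRestrict x) : V) + (x - π x) := by
  simp [extLin]

include hidem

theorem π_coe (y : ↥(LinearMap.range π)) : π (y : V) = y := by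
  obtain ⟨y, z, rfl⟩ := y
  exact hidem z

theorem rr_coe (y : ↥(LinearMap.range π)) : π.rangeRestrict (y : V) = y := by
  ext
  simp [π_coe hidem]

theorem extLin_π (f : ↥(LinearMap.range π) →ₗ[ZMod p] ↥(LinearMap.range π)) (x : V) :
    π (extLin f x) = (f (π.rangeRestrict x) : V) := by
  rw [extLin_apply]
  simp [π_coe hidem, hidem]

theorem extLin_comp (f g : ↥(LinearMap.range π) →ₗ[ZMod p] ↥(LinearMap.range π)) (x : V) :
    extLin f (extLin g x) = extLin (f ∘ₗ g) x := by
  have h1 : π.rangeRestrict (extLin g x) = g (π.rangeRestrict x) := by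
    ext
    exact extLin_π hidem g x
  rw [extLin_apply f, h1, extLin_π hidem, extLin_apply g, extLin_apply (f ∘ₗ g)]
  simp

omit hidem in
theorem extLin_id (x : V) : extLin (LinearMap.id : ↥(LinearMap.range π) →ₗ[ZMod p] _) x = x := by
  rw [extLin_apply]
  simp

omit hidem in
/-- Extending an automorphism of the range by the identity on the kernel. -/
noncomputable def extEquiv (hidem : ∀ x, π (π x) = π x)
    (f : ↥(LinearMap.range π) ≃ₗ[ZMod p] ↥(LinearMap.range π)) :
    V ≃ₗ[ZMod p] V :=
  LinearEquiv.ofLinearMap (extLin (f : _ →ₗ[ZMod p] _)) (extLin (f.symm : _ →ₗ[ZMod p] _))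
    (LinearMap.ext fun x => by
      change extLin (f : ↥(LinearMap.range π) →ₗ[ZMod p] ↥(LinearMap.range π))
        (extLin (f.symm : ↥(LinearMap.range π) →ₗ[ZMod p] ↥(LinearMap.range π)) x) = x
      rw [extLin_comp hidem]
      have : (f : ↥(LinearMap.range π) →ₗ[ZMod p] ↥(LinearMap.range π)) ∘ₗ
          (f.symm : ↥(LinearMap.range π) →ₗ[ZMod p] ↥(LinearMap.range π)) = LinearMap.id := by
        ext y
        simp
      rw [this, extLin_id])
    (LinearMap.ext fun x => by
      change extLin (f.symm : ↥(LinearMap.range π) →ₗ[ZMod p] ↥(LinearMap.range π))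
        (extLin (f : ↥(LinearMap.range π) →ₗ[ZMod p] ↥(LinearMap.range π)) x) = x
      rw [extLin_comp hidem]
      have : (f.symm : ↥(LinearMap.range π) →ₗ[ZMod p] ↥(LinearMap.range π)) ∘ₗ
          (f : ↥(LinearMap.range π) →ₗ[ZMod p] ↥(LinearMap.range π)) = LinearMap.id := by
        ext y
        simp
      rw [this, extLin_id])

omit hidem in
theorem extEquiv_apply (hidem : ∀ x, π (π x) = π x)
    (f : ↥(LinearMap.range π) ≃ₗ[ZMod p] ↥(LinearMap.range π)) (x : V) :
    extEquiv hidem f x = (f (π.rangeRestrict x) : V) + (x - π x) :=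
  extLin_apply _ x

end ext

/-- The alternating form on the range. -/
noncomputable def formOn (Θ : V →ₗ[ZMod p] Dual (ZMod p) V) (U : Submodule (ZMod p) V) :
    LinearMap.BilinForm (ZMod p) ↥U :=
  Θ.compl₁₂ U.subtype U.subtype

theorem formOn_apply (Θ : V →ₗ[ZMod p] Dual (ZMod p) V) (U : Submodule (ZMod p) V) (x y : ↥U) :
    formOn Θ U x y = Θ x y := rfl

theorem formOn_alt (h : SPPair K π Θ) (U : Submodule (ZMod p) V) : (formOn Θ U).IsAlt :=
  fun x => h.alt x

theorem formOn_nondeg (h : SPPair K π Θ) {U : Submodule (ZMod p) V} (hU : U = LinearMap.range π) :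
    (formOn Θ U).Nondegenerate := by
  subst hU
  have key : ∀ x : ↥(LinearMap.range π), (∀ y : ↥(LinearMap.range π), Θ x y = 0) → x = 0 := by
    intro x hx
    have h1 : Θ x = 0 := by
      ext z
      rw [← h.right, LinearMap.zero_apply]
      exact hx ⟨π z, z, rfl⟩
    have h2 := h.nondeg _ h1
    rw [π_coe h.idem] at h2
    exact Subtype.ext h2
  refine ⟨fun x hx => key x hx, fun y hy => key y fun x => ?_⟩
  rw [h.skew]
  have := hy x
  rw [formOn_apply] at this
  rw [this, neg_zero]

/-- The symplectic case. -/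
theorem sp_range [Finite V] (h : SPPair K π Θ) (hiso : ∀ g ∈ K, IsoF π Θ g)
    {U : Submodule (ZMod p) V} (hU : U = LinearMap.range π)
    (hK : ∀ g : ↥K, U.map (((g : V ≃ₗ[ZMod p] V)) : V →ₗ[ZMod p] V) = U) :
    ((rho K U hK).range : Set (↥U ≃ₗ[ZMod p] ↥U)) =
      {f | ∀ x y, formOn Θ U (f x) (f y) = formOn Θ U x y} := by
  subst hU
  ext f
  constructor
  · rintro ⟨g, rfl⟩ x y
    exact (hiso g g.2).pres _ _
  · intro hf
    have hF : IsoF π Θ (extEquiv h.idem f) := by
      have e0 : ∀ x, π (extEquiv h.idem f x) = (f (π.rangeRestrict x) : V) := by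
        intro x
        rw [extEquiv_apply]
        simp [π_coe h.idem, h.idem]
      refine ⟨?_, ?_, ?_⟩
      · intro x
        rw [e0, extEquiv_apply]
        have : π.rangeRestrict (π x) = π.rangeRestrict x := by
          ext
          simp [h.idem]
        rw [this, h.idem]
        simp
      · intro x hx
        rw [extEquiv_apply]
        have : π.rangeRestrict x = 0 := by
          ext
          simpa using hx
        rw [this, hx]
        simp
      · intro x y
        rw [← h.left, ← h.right, e0, e0]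
        have := hf (π.rangeRestrict x) (π.rangeRestrict y)
        rw [formOn_apply, formOn_apply] at this
        rw [this]
        simp [h.left, h.right]
    refine ⟨⟨_, sp_gen h hF⟩, ?_⟩
    ext x
    rw [rho_apply]
    simp only
    rw [extEquiv_apply, rr_coe h.idem, π_coe h.idem]
    simp

section SL

variable {F : Type*} [Field F] {W : Type*} [AddCommGroup W] [Module F W] {m : ℕ}

/-- The action of the special linear group through a basis. -/
noncomputable def psi (b : Basis (Fin m) F W) :
    SpecialLinearGroup (Fin m) F →* (W ≃ₗ[F] W) where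
  toFun A := b.equivFun.trans ((SpecialLinearGroup.toLin' A).trans b.equivFun.symm)
  map_one' := by
    ext x
    simp
  map_mul' A B := by
    ext x
    change b.equivFun.symm (SpecialLinearGroup.toLin' (A * B) (b.equivFun x)) =
      b.equivFun.symm (SpecialLinearGroup.toLin' A (b.equivFun (b.equivFun.symm
        (SpecialLinearGroup.toLin' B (b.equivFun x)))))
    rw [LinearEquiv.apply_symm_apply, map_mul]
    rfl

theorem psi_apply (b : Basis (Fin m) F W) (A : SpecialLinearGroup (Fin m) F) (y : W) :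
    psi b A y = b.equivFun.symm ((A : Matrix (Fin m) (Fin m) F) *ᵥ b.equivFun y) := rfl

theorem psi_transvection (b : Basis (Fin m) F W) {i j : Fin m} (hij : i ≠ j) (c : F) (y : W) :
    psi b (SpecialLinearGroup.transvection hij c) y = y + (c * b.repr y j) • b i := by
  rw [psi_apply, LinearEquiv.symm_apply_eq]
  ext k
  simp only [SpecialLinearGroup.transvection_coe, Matrix.add_mulVec, Matrix.one_mulVec,
    Matrix.single_mulVec, map_add, map_smul, Pi.add_apply, b.equivFun_apply]
  by_cases hk : i = k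
  · subst hk
    simp
  · simp [Ne.symm hk]

theorem exists_psi_eq (b : Basis (Fin m) F W) (f : W ≃ₗ[F] W)
    (hf : LinearMap.det (f : W →ₗ[F] W) = 1) : ∃ A, psi b A = f := by
  have hdet : (LinearMap.toMatrix b b (f : W →ₗ[F] W)).det = 1 := by
    rw [LinearMap.det_toMatrix]
    exact hf
  obtain ⟨A, hA⟩ : ∃ A : SpecialLinearGroup (Fin m) F,
      (A : Matrix (Fin m) (Fin m) F) = LinearMap.toMatrix b b (f : W →ₗ[F] W) := ⟨⟨_, hdet⟩, rfl⟩
  refine ⟨A, ?_⟩
  ext y
  rw [psi_apply, LinearEquiv.symm_apply_eq, hA]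
  simp only [b.equivFun_apply]
  exact LinearMap.toMatrix_mulVec_repr b b (f : W →ₗ[F] W) y

end SL

/-- The linear case. -/
theorem sl_range [Finite V] {C : Set (V ≃ₗ[ZMod p] V)} (hKC : K = Subgroup.closure C)
    (h : SLPair K π)
    (hC : ∀ g ∈ C, ∃ (u : V) (θ : Dual (ZMod p) V), π u = u ∧ θ u = 0 ∧ ∀ x, g x = x + θ x • u)
    {U : Submodule (ZMod p) V} (hU : U = LinearMap.range π)
    (hK : ∀ g : ↥K, U.map (((g : V ≃ₗ[ZMod p] V)) : V →ₗ[ZMod p] V) = U) :
    ((rho K U hK).range : Set (↥U ≃ₗ[ZMod p] ↥U)) =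
      {f : ↥U ≃ₗ[ZMod p] ↥U | LinearMap.det (f : ↥U →ₗ[ZMod p] ↥U) = 1} := by
  subst hU
  have : Module.Finite (ZMod p) V := Module.Finite.of_finite
  ext f
  constructor
  · rintro ⟨g, rfl⟩
    subst hKC
    obtain ⟨g, hg⟩ := g
    induction hg using Subgroup.closure_induction with
    | mem g hg =>
      obtain ⟨u, θ, hu, hθu, hgx⟩ := hC g hg
      have e : ((rho (Subgroup.closure C) _ hK ⟨g, Subgroup.subset_closure hg⟩ :
          _ ≃ₗ[ZMod p] _) : _ →ₗ[ZMod p] _) =
          LinearMap.transvection (θ.domRestrict _) (⟨u, u, hu⟩ : ↥(LinearMap.range π)) := by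
        ext x
        simp only [LinearEquiv.coe_coe, rho_apply, LinearMap.transvection.apply]
        rw [hgx]
        simp
      simp only [Set.mem_ofPred_eq]
      rw [e, LinearMap.transvection.det]
      simp [hθu]
    | one =>
      have : ((⟨1, Subgroup.one_mem _⟩ : ↥(Subgroup.closure C))) = 1 := rfl
      simp only [Set.mem_ofPred_eq]
      rw [this, map_one]
      simp
    | mul a b ha hb iha ihb =>
      have : ((⟨a * b, Subgroup.mul_mem _ ha hb⟩ : ↥(Subgroup.closure C))) = ⟨a, ha⟩ * ⟨b, hb⟩ := rfl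
      simp only [Set.mem_ofPred_eq] at iha ihb ⊢
      rw [this, map_mul, LinearEquiv.coe_toLinearMap_mul, map_mul, iha, ihb, one_mul]
    | inv a ha iha =>
      have : ((⟨a⁻¹, Subgroup.inv_mem _ ha⟩ : ↥(Subgroup.closure C))) = ⟨a, ha⟩⁻¹ := rfl
      simp only [Set.mem_ofPred_eq] at iha ⊢
      rw [this, map_inv]
      have h2 := LinearEquiv.coe_det (rho (Subgroup.closure C) _ hK ⟨a, ha⟩)
      rw [iha] at h2
      have h3 : LinearEquiv.det (rho (Subgroup.closure C) _ hK ⟨a, ha⟩) = 1 := Units.ext h2
      have h4 := LinearEquiv.coe_det (rho (Subgroup.closure C) _ hK ⟨a, ha⟩)⁻¹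
      rw [map_inv, h3, inv_one] at h4
      exact h4.symm
  · intro hf
    let b := Module.finBasis (ZMod p) ↥(LinearMap.range π)
    obtain ⟨A, rfl⟩ := exists_psi_eq b f hf
    have htop := Cfsg.Agent.Lib.SLGen.eq_top_of_forall_transvection_mem
      ((rho K _ hK).range.comap (psi b)) (by
        intro i j hij c
        rw [Subgroup.mem_comap]
        let χ : Dual (ZMod p) V := c • ((b.coord j).comp π.rangeRestrict)
        have hχ : ∀ y, χ (π y) = χ y := by
          intro y
          have : π.rangeRestrict (π y) = π.rangeRestrict y := by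
            ext
            simp [h.idem]
          simp [χ, this]
        have hx : π (b i : V) = b i := π_coe h.idem _
        have hχx : χ (b i : V) = 0 := by
          have : π.rangeRestrict (b i : V) = b i := rr_coe h.idem _
          simp [χ, this, hij.symm]
        obtain ⟨_, g, hgK, hg⟩ := h.flag _ χ hx hχ hχx
        refine ⟨⟨g, hgK⟩, ?_⟩
        ext y
        rw [rho_apply, psi_transvection]
        simp only [hg, Submodule.coe_add, Submodule.coe_smul]
        congr 2
        have : π.rangeRestrict (y : V) = y := rr_coe h.idem _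
        simp [χ, this])
    have hA : A ∈ (rho K _ hK).range.comap (psi b) := by
      rw [htop]
      trivial
    exact hA

end Cfsg.Agent.Lib.McLH39
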