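import Mathlib
import Cfsg.Agent.Lib.McLH39Range
import Cfsg.Agent.Lib.McLH39Hyp

/-!
# One component of a transvection group
-/

set_option autoImplicit false

namespace Cfsg.Agent.Lib.McLH39

open Module

variable {p : ℕ} [Fact p.Prime] {V : Type*} [AddCommGroup V] [Module (ZMod p) V]
variable {K : Subgroup (V ≃ₗ[ZMod p] V)} {π : V →ₗ[ZMod p] V}

/-- A nontrivial transvection. -/
def IsTvEl (g : V ≃ₗ[ZMod p] V) : Prop :=
  g ≠ 1 ∧ ∃ (v : V) (φ : Dual (ZMod p) V), φ v = 0 ∧ ∀ x, g x = x + φ x • v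

theorem IsTvEl.nontrivial {g : V ≃ₗ[ZMod p] V} (hg : g ≠ 1) {v : V} {φ : Dual (ZMod p) V}
    (hx : ∀ x, g x = x + φ x • v) : v ≠ 0 ∧ φ ≠ 0 := by
  constructor
  · rintro rfl
    apply hg
    ext x
    simp [hx]
  · rintro rfl
    apply hg
    ext x
    simp [hx]

/-- All the structure of a component. -/
structure CompData (K : Subgroup (V ≃ₗ[ZMod p] V)) (π : V →ₗ[ZMod p] V) : Prop where
  idem : ∀ x, π (π x) = π x
  comm : ∀ g ∈ K, ∀ x, π (g x) = g (π x)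
  fix : ∀ g ∈ K, ∀ x, π x = 0 → g x = x
  center : ∀ x, π x = x → x ≠ 0 → ∃ ω : Dual (ZMod p) V, ω ≠ 0 ∧ IsTv K x ω
  detect : ∀ y, π y = y → y ≠ 0 → ∃ (x' : V) (ω' : Dual (ZMod p) V), x' ≠ 0 ∧ ω' ≠ 0 ∧ ω' y ≠ 0 ∧
    IsTv K x' ω'
  image : ∀ U : Submodule (ZMod p) V, U = LinearMap.range π →
    ∃ ρ : ↥K →* (↥U ≃ₗ[ZMod p] ↥U),
      (∀ (h : ↥K) (v : ↥U), ((ρ h v : ↥U) : V) = (h : V ≃ₗ[ZMod p] V) (v : V)) ∧
      ((ρ.range : Set (↥U ≃ₗ[ZMod p] ↥U)) =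
          {f : ↥U ≃ₗ[ZMod p] ↥U | LinearMap.det (f : ↥U →ₗ[ZMod p] ↥U) = 1} ∨
        ∃ B : LinearMap.BilinForm (ZMod p) ↥U, B.IsAlt ∧ B.Nondegenerate ∧
          (ρ.range : Set (↥U ≃ₗ[ZMod p] ↥U)) =
            {f : ↥U ≃ₗ[ZMod p] ↥U | ∀ x y, B (f x) (f y) = B x y})

/-- From the dichotomy to: all generators are flags. -/
theorem flags_of_dichotomy {C : Set (V ≃ₗ[ZMod p] V)} (hC : ∀ g ∈ C, IsTvEl g)
    (hconn : ∀ Q : (V ≃ₗ[ZMod p] V) → Prop,
      (∀ g ∈ C, ∀ g' ∈ C, g * g' ≠ g' * g → Q g → Q g') → (∃ g ∈ C, Q g) → ∀ g ∈ C, Q g)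
    {P : V → Dual (ZMod p) V → Prop} (hP : ∀ u θ, P u θ → π u = u ∧ ∀ y, θ (π y) = θ y)
    (hdi : ∀ (u : V) (θ : Dual (ZMod p) V), u ≠ 0 → θ ≠ 0 → IsTv (Subgroup.closure C) u θ →
      P u θ ∨ (π u = 0 ∧ ∀ y, θ (π y) = 0))
    (hmove : ∃ y, π y = y ∧ ∃ g ∈ Subgroup.closure C, g y ≠ y) :
    ∀ g ∈ C, ∃ (u : V) (θ : Dual (ZMod p) V), P u θ ∧ θ u = 0 ∧ ∀ x, g x = x + θ x • u := by
  -- the dichotomy for elements
  have hel : ∀ g ∈ C, ∃ (u : V) (θ : Dual (ZMod p) V), θ u = 0 ∧ (∀ x, g x = x + θ x • u) ∧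
      (P u θ ∨ (π u = 0 ∧ ∀ y, θ (π y) = 0)) := by
    intro g hg
    obtain ⟨hg1, v, φ, h0, hx⟩ := hC g hg
    obtain ⟨hv, hφ⟩ := IsTvEl.nontrivial hg1 hx
    exact ⟨v, φ, h0, hx, hdi v φ hv hφ ⟨h0, g, Subgroup.subset_closure hg, hx⟩⟩
  let Q : (V ≃ₗ[ZMod p] V) → Prop := fun g =>
    ∃ (u : V) (θ : Dual (ZMod p) V), P u θ ∧ θ u = 0 ∧ ∀ x, g x = x + θ x • u
  apply hconn Q
  · rintro g - g' hg' hne ⟨u, θ, hP', h0, hx⟩
    obtain ⟨u', θ', h0', hx', hor⟩ := hel g' hg'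
    rcases hor with hP'' | ⟨h1, h2⟩
    · exact ⟨u', θ', hP'', h0', hx'⟩
    · exfalso
      apply hne
      obtain ⟨h3, h4⟩ := hP u θ hP'
      refine tv_comm_of hx hx' ?_ ?_
      · rw [← h4, h1, map_zero]
      · rw [← h3]
        exact h2 u
  · by_contra hc
    push Not at hc
    -- everything fixes the range
    have hfix : ∀ g ∈ Subgroup.closure C, ∀ y, π y = y → g y = y := by
      intro g hg
      induction hg using Subgroup.closure_induction with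
      | mem g hg =>
        intro y hy
        obtain ⟨u, θ, h0, hx, hor⟩ := hel g hg
        rcases hor with hP' | ⟨h1, h2⟩
        · exact absurd (show Q g from ⟨u, θ, hP', h0, hx⟩) (hc g hg)
        · rw [hx, ← hy, h2]
          simp [hy]
      | one => intro y _; rfl
      | mul a b _ _ iha ihb =>
        intro y hy
        rw [LinearEquiv.mul_apply, ihb y hy, iha y hy]
      | inv a _ iha =>
        intro y hy
        rw [LinearEquiv.coe_inv, LinearEquiv.symm_apply_eq, iha y hy]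
    obtain ⟨y, hy, g, hg, hne⟩ := hmove
    exact hne (hfix g hg y hy)

theorem comm_fix_of_closure {C : Set (V ≃ₗ[ZMod p] V)}
    (hC : ∀ g ∈ C, ∃ (u : V) (θ : Dual (ZMod p) V), π u = u ∧ (∀ y, θ (π y) = θ y) ∧
      ∀ x, g x = x + θ x • u) :
    ∀ g ∈ Subgroup.closure C, (∀ x, π (g x) = g (π x)) ∧ (∀ x, π x = 0 → g x = x) := by
  intro g hg
  induction hg using Subgroup.closure_induction with
  | mem g hg =>
    obtain ⟨u, θ, h1, h2, h3⟩ := hC g hg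
    refine ⟨fun x => ?_, fun x hx => ?_⟩
    · rw [h3, h3]
      simp [h1, h2]
    · rw [h3, ← h2, hx]
      simp
  | one => exact ⟨fun _ => rfl, fun _ _ => rfl⟩
  | mul a b _ _ iha ihb =>
    refine ⟨fun x => ?_, fun x hx => ?_⟩
    · simp only [LinearEquiv.mul_apply, iha.1, ihb.1]
    · simp only [LinearEquiv.mul_apply, ihb.2 x hx, iha.2 x hx]
  | inv a _ iha =>
    refine ⟨fun x => ?_, fun x hx => ?_⟩
    · have h1 : a (π (a⁻¹ x)) = π x := by
        rw [← iha.1]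
        simp
      rw [← h1]
      simp
    · rw [LinearEquiv.coe_inv, LinearEquiv.symm_apply_eq, iha.2 x hx]

theorem map_range_of_comm (hcomm : ∀ g ∈ K, ∀ x, π (g x) = g (π x)) (g : ↥K) :
    (LinearMap.range π).map (((g : V ≃ₗ[ZMod p] V)) : V →ₗ[ZMod p] V) = LinearMap.range π := by
  ext x
  constructor
  · rintro ⟨_, ⟨y, rfl⟩, rfl⟩
    exact ⟨(g : V ≃ₗ[ZMod p] V) y, hcomm _ g.2 y⟩
  · rintro ⟨y, rfl⟩
    refine ⟨_, ⟨((g : V ≃ₗ[ZMod p] V)⁻¹) y, rfl⟩, ?_⟩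
    change (g : V ≃ₗ[ZMod p] V) (π (((g : V ≃ₗ[ZMod p] V)⁻¹) y)) = π y
    rw [← hcomm _ g.2]
    simp

/-- The structure of a component. -/
theorem component [Finite V] (h2 : (2 : ZMod p) ≠ 0) {C : Set (V ≃ₗ[ZMod p] V)}
    (hC : ∀ g ∈ C, IsTvEl g) (hne : C.Nonempty)
    (hconn : ∀ Q : (V ≃ₗ[ZMod p] V) → Prop,
      (∀ g ∈ C, ∀ g' ∈ C, g * g' ≠ g' * g → Q g → Q g') → (∃ g ∈ C, Q g) → ∀ g ∈ C, Q g)
    (hHyp : Hyp (Subgroup.closure C)) : ∃ π : V →ₗ[ZMod p] V, CompData (Subgroup.closure C) π := by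
  rcases core h2 hHyp with ⟨π, Θ, h, hdi, hnz⟩ | ⟨π, h, hrk, hdi⟩
  · -- the symplectic case
    obtain ⟨g₀, hg₀⟩ := hne
    obtain ⟨hg₀1, v₀, φ₀, h₀0, h₀x⟩ := hC g₀ hg₀
    obtain ⟨hv₀, hφ₀⟩ := IsTvEl.nontrivial hg₀1 h₀x
    obtain ⟨x₀, hx₀⟩ := hnz ⟨v₀, φ₀, hv₀, hφ₀, h₀0, g₀, Subgroup.subset_closure hg₀, h₀x⟩
    have hdetect : ∀ y, π y = y → y ≠ 0 → ∃ (x' : V) (ω' : Dual (ZMod p) V), x' ≠ 0 ∧ ω' ≠ 0 ∧
        ω' y ≠ 0 ∧ IsTv (Subgroup.closure C) x' ω' := by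
      intro y hy hy0
      obtain ⟨z, hz⟩ : ∃ z, Θ y z ≠ 0 := by
        by_contra hc
        push Not at hc
        exact h.ne_zero_of hy hy0 (LinearMap.ext hc)
      have hz' : Θ y (π z) ≠ 0 := by rwa [h.right]
      have hz0 : π z ≠ 0 := by
        intro h0
        rw [h0] at hz'
        simp at hz'
      refine ⟨π z, Θ (π z), hz0, h.ne_zero_of (h.idem z) hz0, ?_, h.flag1 (h.idem z)⟩
      rw [h.skew]
      exact neg_ne_zero.mpr hz'
    have hmove : ∃ y, π y = y ∧ ∃ g ∈ Subgroup.closure C, g y ≠ y := by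
      obtain ⟨x', ω', hx', hω', hne', -, g, hg, hgx⟩ := hdetect (π x₀) (h.idem x₀) hx₀
      refine ⟨π x₀, h.idem x₀, g, hg, ?_⟩
      rw [hgx]
      intro he
      have : ω' (π x₀) • x' = 0 := by simpa using he
      simp [hne', hx'] at this
    have hflags := flags_of_dichotomy (P := fun u θ => π u = u ∧ ∃ κ : ZMod p, κ ≠ 0 ∧ θ = κ • Θ u)
      hC hconn (by
        rintro u θ ⟨h1, κ, -, rfl⟩
        refine ⟨h1, fun y => ?_⟩
        simp [h.right]) hdi hmove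
    have hiso : ∀ g ∈ Subgroup.closure C, IsoF π Θ g := by
      intro g hg
      induction hg using Subgroup.closure_induction with
      | mem g hg =>
        obtain ⟨u, θ, ⟨h1, κ, -, rfl⟩, -, hx⟩ := hflags g hg
        obtain ⟨g', -, hiso', hg'⟩ := h.exists_flag_iso h1 κ
        have : g = g' := LinearEquiv.ext fun x => by
          rw [hx, hg']
          simp
        rwa [this]
      | one => exact IsoF.one
      | mul a b _ _ iha ihb => exact iha.mul ihb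
      | inv a _ iha => exact iha.inv
    have hcomm : ∀ g ∈ Subgroup.closure C, ∀ x, π (g x) = g (π x) := fun g hg => (hiso g hg).comm
    refine ⟨π, h.idem, hcomm, fun g hg => (hiso g hg).fix, ?_, hdetect, ?_⟩
    · intro x hx hx0
      exact ⟨Θ x, h.ne_zero_of hx hx0, h.flag1 hx⟩
    · intro U hU
      subst hU
      have hK := map_range_of_comm hcomm
      refine ⟨rho _ _ hK, fun _ _ => rfl, Or.inr ⟨formOn Θ _, formOn_alt h _, formOn_nondeg h rfl, ?_⟩⟩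
      exact sp_range h hiso rfl hK
  · -- the linear case
    have hdetect : ∀ y, π y = y → y ≠ 0 → ∃ (x' : V) (ω' : Dual (ZMod p) V), x' ≠ 0 ∧ ω' ≠ 0 ∧
        ω' y ≠ 0 ∧ (∀ z, ω' (π z) = ω' z) ∧ π x' = x' ∧ IsTv (Subgroup.closure C) x' ω' := by
      intro y hy hy0
      obtain ⟨ω', hω', hne'⟩ := exists_form_ne h.idem hy hy0
      have hω'0 : ω' ≠ 0 := by
        rintro rfl
        simp at hne'
      obtain ⟨x', hx'0, hx', h1, -⟩ := exists_vec_kill h.idem hrk ω' 0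
      exact ⟨x', ω', hx'0, hω'0, hne', hω', hx', h.flag x' ω' hx' hω' h1⟩
    have hmove : ∃ y, π y = y ∧ ∃ g ∈ Subgroup.closure C, g y ≠ y := by
      obtain ⟨y, hy0, hy, -, -⟩ := exists_vec_kill h.idem hrk (0 : Dual (ZMod p) V) 0
      obtain ⟨x', ω', hx', hω', hne', -, -, -, g, hg, hgx⟩ := hdetect y hy hy0
      refine ⟨y, hy, g, hg, ?_⟩
      rw [hgx]
      intro he
      have : ω' y • x' = 0 := by simpa using he
      simp [hne', hx'] at this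
    have hflags := flags_of_dichotomy (P := fun u θ => π u = u ∧ ∀ y, θ (π y) = θ y)
      hC hconn (fun _ _ h' => h') hdi hmove
    have hcf := comm_fix_of_closure (π := π) (C := C) (fun g hg => by
      obtain ⟨u, θ, ⟨h1, h3⟩, -, hx⟩ := hflags g hg
      exact ⟨u, θ, h1, h3, hx⟩)
    have hcomm : ∀ g ∈ Subgroup.closure C, ∀ x, π (g x) = g (π x) := fun g hg => (hcf g hg).1
    refine ⟨π, h.idem, hcomm, fun g hg => (hcf g hg).2, ?_, ?_, ?_⟩
    · intro x hx hx0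
      obtain ⟨χ, hχ0, hχ, h1, -⟩ := exists_form_kill h.idem hrk x x
      exact ⟨χ, hχ0, h.flag x χ hx hχ h1⟩
    · intro y hy hy0
      obtain ⟨x', ω', h1, h3, h4, -, -, h5⟩ := hdetect y hy hy0
      exact ⟨x', ω', h1, h3, h4, h5⟩
    · intro U hU
      subst hU
      have hK := map_range_of_comm hcomm
      refine ⟨rho _ _ hK, fun _ _ => rfl, Or.inl ?_⟩
      refine sl_range rfl h (fun g hg => ?_) rfl hK
      obtain ⟨u, θ, ⟨h1, -⟩, h3, hx⟩ := hflags g hg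
      exact ⟨u, θ, h1, h3, hx⟩

/-- Orthogonality of components. -/
theorem CompData.orth {K' : Subgroup (V ≃ₗ[ZMod p] V)} {π' : V →ₗ[ZMod p] V}
    (hd : CompData K π) (hd' : CompData K' π')
    (hcomm : ∀ a ∈ K, ∀ b ∈ K', a * b = b * a) (y : V) : π (π' y) = 0 := by
  by_contra hc
  set w := π' y with hw
  have hw' : π' w = w := hd'.idem y
  have hw0 : w ≠ 0 := by
    intro h0
    rw [h0] at hc
    simp at hc
  obtain ⟨ω, hω0, hω00, g', hg', hg'x⟩ := hd'.center w hw' hw0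
  obtain ⟨x', ω', hx'0, hω'0, hne, hω'00, g, hg, hgx⟩ := hd.detect (π w) (hd.idem w) hc
  have h1 := tv_pairing_of_comm hgx hg'x hω00 hw0 hx'0 hω'0 hω0 (hcomm g hg g' hg')
  -- `ω' w = 0`, whereas `ω'` factors through `π`
  -- the element `g` fixes `w - π w`; this gives `ω' (w - π w) = 0`
  have h2 : g (w - π w) = w - π w := hd.fix g hg _ (by simp [hd.idem])
  rw [hgx] at h2
  have h3 : ω' (w - π w) • x' = 0 := by simpa using h2
  have h4 : ω' (w - π w) = 0 := by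
    rcases smul_eq_zero.mp h3 with h | h
    · exact h
    · exact absurd h hx'0
  rw [map_sub, h1.1, zero_sub] at h4
  exact hne (neg_eq_zero.mp h4)

end Cfsg.Agent.Lib.McLH39
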