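import Mathlib
import Cfsg.Agent.Lib.McLH39Comp

/-!
# Assembling the components of a transvection group
-/

set_option autoImplicit false

namespace Cfsg.Agent.Lib.McLH39

open Module

variable {p : ℕ} [Fact p.Prime] {V : Type*} [AddCommGroup V] [Module (ZMod p) V]

/-- The conclusion of McLaughlin's theorem. -/
def McLConcl (p : ℕ) [Fact p.Prime] (V : Type*) [AddCommGroup V] [Module (ZMod p) V]
    (H : Subgroup (V ≃ₗ[ZMod p] V)) : Prop :=
  ∃ (n : ℕ) (W : Fin (n + 1) → Submodule (ZMod p) V) (K : Fin n → Subgroup (V ≃ₗ[ZMod p] V)),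
      1 ≤ n ∧ DirectSum.IsInternal W ∧
      (∀ h ∈ H, ∀ i, (W i).map (h : V →ₗ[ZMod p] V) = W i) ∧
      (∀ j, K j ≤ H ∧ ((K j).subgroupOf H).Normal) ∧ ⨆ j, K j = H ∧
      (∀ j, K j ⊓ (⨆ j' ∈ {j' : Fin n | j' ≠ j}, K j') = ⊥) ∧
      (∀ j j', j ≠ j' → ∀ a ∈ K j, ∀ b ∈ K j', a * b = b * a) ∧
      (∀ j, ∀ h ∈ K j, ∀ i : Fin (n + 1), i ≠ j.succ → ∀ v ∈ W i, h v = v) ∧
      (∀ j, ∃ ρ : ↥(K j) →* (↥(W j.succ) ≃ₗ[ZMod p] ↥(W j.succ)),
        (∀ (h : ↥(K j)) (v : ↥(W j.succ)), ((ρ h v : ↥(W j.succ)) : V) = (h : V ≃ₗ[ZMod p] V) (v : V)) ∧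
        ((ρ.range : Set (↥(W j.succ) ≃ₗ[ZMod p] ↥(W j.succ))) =
            {f : ↥(W j.succ) ≃ₗ[ZMod p] ↥(W j.succ) | LinearMap.det (f : ↥(W j.succ) →ₗ[ZMod p] ↥(W j.succ)) = 1} ∨
          ∃ B : LinearMap.BilinForm (ZMod p) ↥(W j.succ), B.IsAlt ∧ B.Nondegenerate ∧
            (ρ.range : Set (↥(W j.succ) ≃ₗ[ZMod p] ↥(W j.succ))) = {f : ↥(W j.succ) ≃ₗ[ZMod p] ↥(W j.succ) | ∀ x y, B (f x) (f y) = B x y}))

/-- Complete families of orthogonal idempotents give internal direct sums. -/
theorem isInternal_of_orth {ι : Type*} [Fintype ι] [DecidableEq ι] (P : ι → V →ₗ[ZMod p] V)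
    (horth : ∀ i j, i ≠ j → ∀ x, P i (P j x) = 0) (hsum : ∀ x, ∑ i, P i x = x) :
    DirectSum.IsInternal (fun i => LinearMap.range (P i)) := by
  have hidem : ∀ i x, P i (P i x) = P i x := by
    intro i x
    conv_rhs => rw [← hsum x, map_sum]
    rw [Finset.sum_eq_single i]
    · intro j _ hj
      exact horth i j (Ne.symm hj) x
    · intro h
      exact absurd (Finset.mem_univ i) h
  apply DirectSum.isInternal_submodule_of_iSupIndep_of_iSup_eq_top
  · rw [iSupIndep_def]
    intro i
    rw [Submodule.disjoint_def]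
    intro x hx hx'
    have hle : (⨆ j, ⨆ (_ : j ≠ i), LinearMap.range (P j)) ≤ LinearMap.ker (P i) := by
      refine iSup₂_le ?_
      rintro j hj _ ⟨y, rfl⟩
      exact horth i j (Ne.symm hj) y
    have h1 : P i x = 0 := hle hx'
    obtain ⟨y, rfl⟩ := hx
    rw [hidem] at h1
    exact h1
  · rw [eq_top_iff]
    intro x _
    rw [← hsum x]
    exact Submodule.sum_mem _ fun i _ => Submodule.mem_iSup_of_mem i ⟨x, rfl⟩

/-- The group of maps commuting with `π`. -/
def commSub (π : V →ₗ[ZMod p] V) : Subgroup (V ≃ₗ[ZMod p] V) where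
  carrier := {g | ∀ x, π (g x) = g (π x)}
  mul_mem' {a b} ha hb x := by
    simp only [LinearEquiv.mul_apply]
    rw [ha, hb]
  one_mem' _ := rfl
  inv_mem' {a} ha x := by
    have h1 : a (π (a⁻¹ x)) = π x := by
      rw [← ha]
      simp
    rw [← h1]
    simp

/-- The group of maps fixing the range of `π`. -/
def fixSub (π : V →ₗ[ZMod p] V) : Subgroup (V ≃ₗ[ZMod p] V) where
  carrier := {g | ∀ y, π y = y → g y = y}
  mul_mem' {a b} ha hb y hy := by
    rw [LinearEquiv.mul_apply, hb y hy, ha y hy]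
  one_mem' _ _ := rfl
  inv_mem' {a} ha y hy := by
    rw [LinearEquiv.coe_inv, LinearEquiv.symm_apply_eq, ha y hy]

theorem concl_of_data {n : ℕ} (hn : 1 ≤ n) (H : Subgroup (V ≃ₗ[ZMod p] V))
    (Kf : Fin n → Subgroup (V ≃ₗ[ZMod p] V)) (πf : Fin n → V →ₗ[ZMod p] V)
    (hdata : ∀ j, CompData (Kf j) (πf j))
    (hcomm : ∀ j j', j ≠ j' → ∀ a ∈ Kf j, ∀ b ∈ Kf j', a * b = b * a)
    (hle : ∀ j, Kf j ≤ H) (hnorm : ∀ j, ∀ h ∈ H, ∀ k ∈ Kf j, h * k * h⁻¹ ∈ Kf j)
    (hsup : ⨆ j, Kf j = H) : McLConcl p V H := by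
  have horth : ∀ j j', j ≠ j' → ∀ x, πf j (πf j' x) = 0 :=
    fun j j' hj => (hdata j).orth (hdata j') (hcomm j j' hj)
  -- the idempotents
  let P₀ : V →ₗ[ZMod p] V := LinearMap.id - ∑ j, πf j
  let P : Fin (n + 1) → V →ₗ[ZMod p] V := Fin.cons P₀ πf
  have hP0 : P 0 = P₀ := rfl
  have hPs : ∀ j, P j.succ = πf j := fun j => rfl
  have hsumπ : ∀ j x, ∑ k, πf j (πf k x) = πf j x := by
    intro j x
    rw [Finset.sum_eq_single j]
    · exact (hdata j).idem x
    · intro k _ hk
      exact horth j k (Ne.symm hk) x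
    · intro h
      exact absurd (Finset.mem_univ j) h
  have hsumπ' : ∀ j x, ∑ k, πf k (πf j x) = πf j x := by
    intro j x
    rw [Finset.sum_eq_single j]
    · exact (hdata j).idem x
    · intro k _ hk
      exact horth k j hk x
    · intro h
      exact absurd (Finset.mem_univ j) h
  have hP₀x : ∀ x, P₀ x = x - ∑ k, πf k x := by
    intro x
    simp [P₀, LinearMap.sum_apply]
  have hPorth : ∀ i j, i ≠ j → ∀ x, P i (P j x) = 0 := by
    intro i j
    induction i using Fin.cases with
    | zero =>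
      induction j using Fin.cases with
      | zero => intro h; exact absurd rfl h
      | succ j =>
        intro _ x
        rw [hP0, hPs, hP₀x, hsumπ', sub_self]
    | succ i =>
      induction j using Fin.cases with
      | zero =>
        intro _ x
        rw [hP0, hPs, hP₀x, map_sub, map_sum, hsumπ, sub_self]
      | succ j =>
        intro hij x
        rw [hPs, hPs]
        exact horth i j (fun h => hij (by rw [h])) x
  have hPsum : ∀ x, ∑ i, P i x = x := by
    intro x
    rw [Fin.sum_univ_succ, hP0, hP₀x]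
    simp only [hPs]
    abel
  -- `H` commutes with everything
  have hπH : ∀ j, H ≤ commSub (πf j) := by
    intro j
    rw [← hsup]
    refine iSup_le fun j' => ?_
    intro g hg x
    by_cases hj : j' = j
    · subst hj
      exact (hdata j').comm g hg x
    · have h1 : g (πf j x) = πf j x :=
        (hdata j').fix g hg _ (horth j' j hj x)
      rw [h1]
      have h2 : g (x - πf j' x) = x - πf j' x := (hdata j').fix g hg _ (by simp [(hdata j').idem])
      have h3 : g x = πf j' (g x) + (x - πf j' x) := by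
        have h4 := h2
        rw [map_sub, ← (hdata j').comm g hg x] at h4
        rw [← h4]
        abel
      rw [h3, map_add, horth j j' (Ne.symm hj), zero_add, map_sub, horth j j' (Ne.symm hj), sub_zero]
  have hPH : ∀ h ∈ H, ∀ i x, P i (h x) = h (P i x) := by
    intro h hh i x
    induction i using Fin.cases with
    | zero =>
      rw [hP0, hP₀x, hP₀x, map_sub, map_sum]
      congr 1
      exact Finset.sum_congr rfl fun k _ => hπH k hh x
    | succ j =>
      rw [hPs]
      exact hπH j hh x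
  refine ⟨n, fun i => LinearMap.range (P i), Kf, hn, isInternal_of_orth P hPorth hPsum, ?_, ?_, hsup,
    ?_, hcomm, ?_, ?_⟩
  · intro h hh i
    have := map_range_of_comm (K := H) (π := P i) (fun g hg x => hPH g hg i x) ⟨h, hh⟩
    exact this
  · intro j
    refine ⟨hle j, ⟨fun a ha g => ?_⟩⟩
    rw [Subgroup.mem_subgroupOf] at ha ⊢
    exact hnorm j g g.2 a ha
  · intro j
    rw [eq_bot_iff]
    rintro x ⟨hx1, hx2⟩
    have h1 : (⨆ j' ∈ {j' : Fin n | j' ≠ j}, Kf j') ≤ fixSub (πf j) := by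
      refine iSup₂_le fun j' hj' => ?_
      intro g hg y hy
      have : πf j' y = 0 := by
        rw [← hy]
        exact horth j' j hj' y
      exact (hdata j').fix g hg y this
    have h2 : x ∈ fixSub (πf j) := h1 hx2
    rw [Subgroup.mem_bot]
    ext z
    have h3 : x (πf j z) = πf j z := h2 _ ((hdata j).idem z)
    have h4 : x (z - πf j z) = z - πf j z := (hdata j).fix x hx1 _ (by simp [(hdata j).idem])
    rw [map_sub, h3] at h4
    have h5 : x z = z := sub_left_injective h4
    simpa using h5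
  · intro j h hh i hi v hv
    obtain ⟨y, rfl⟩ := hv
    refine (hdata j).fix h hh _ ?_
    rw [← hPs]
    exact hPorth j.succ i (Ne.symm hi) y
  · intro j
    exact (hdata j).image _ rfl

/-- The trivial component. -/
theorem compData_bot : CompData (⊥ : Subgroup (V ≃ₗ[ZMod p] V)) 0 := by
  refine ⟨by simp, ?_, ?_, ?_, ?_, ?_⟩
  · intro g hg x
    rw [Subgroup.mem_bot.mp hg]
    simp
  · intro g hg x _
    rw [Subgroup.mem_bot.mp hg]
    rfl
  · intro x hx hx0
    exact absurd hx.symm hx0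
  · intro x hx hx0
    exact absurd hx.symm hx0
  · intro U hU
    have hU' : U = ⊥ := by
      rw [hU]
      exact LinearMap.range_zero
    subst hU'
    refine ⟨1, ?_, Or.inl ?_⟩
    · intro h v
      have := Subgroup.mem_bot.mp h.2
      simp [this]
    · ext f
      have hf : f = 1 := by
        ext x
      subst hf
      constructor
      · intro _
        change LinearMap.det (LinearMap.id) = 1
        exact LinearMap.det_id
      · intro _
        exact Subgroup.one_mem _

theorem concl_of_bot (H : Subgroup (V ≃ₗ[ZMod p] V)) (hH : H = ⊥) : McLConcl p V H := by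
  subst hH
  refine concl_of_data (n := 1) le_rfl ⊥ (fun _ => ⊥) (fun _ => 0) (fun _ => compData_bot) ?_
    (fun _ => le_rfl) ?_ ?_
  · intro j j' hj
    exact absurd (Subsingleton.elim j j') hj
  · intro j h hh k hk
    rw [Subgroup.mem_bot.mp hh, Subgroup.mem_bot.mp hk]
    simp
  · simp

end Cfsg.Agent.Lib.McLH39
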