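import Mathlib
import Cfsg.Agent.Lib.McLH39Final

/-!
# McLaughlin's theorem over prime fields of odd order
-/

set_option autoImplicit false

namespace Cfsg.Agent.Lib.McLH39

open Module

variable {p : ℕ} [Fact p.Prime] {V : Type*} [AddCommGroup V] [Module (ZMod p) V]

theorem two_ne_zero_of_odd (hodd : Odd p) : (2 : ZMod p) ≠ 0 := by
  intro h
  have h1 : ((2 : ℕ) : ZMod p) = 0 := by simpa using h
  rw [ZMod.natCast_eq_zero_iff] at h1
  have h2 := Nat.le_of_dvd (by norm_num) h1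
  have hp2 := (Fact.out : p.Prime).two_le
  obtain ⟨k, hk⟩ := hodd
  omega

theorem isTvEl_of_hyperplane [Finite V] {t : V ≃ₗ[ZMod p] V} (h1 : orderOf t = p)
    (h2 : finrank (ZMod p) ↥(LinearMap.ker ((t : V →ₗ[ZMod p] V) - LinearMap.id)) + 1 =
      finrank (ZMod p) V) : IsTvEl t := by
  have : Module.Finite (ZMod p) V := Module.Finite.of_finite
  have hp := (Fact.out : p.Prime)
  have ht1 : t ≠ 1 := by
    rintro rfl
    rw [orderOf_one] at h1
    exact hp.one_lt.ne h1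
  refine ⟨ht1, ?_⟩
  have hr : finrank (ZMod p) ↥(LinearMap.range ((t : V →ₗ[ZMod p] V) - LinearMap.id)) ≤ 1 := by
    have := LinearMap.finrank_range_add_finrank_ker ((t : V →ₗ[ZMod p] V) - LinearMap.id)
    omega
  have hm : t ∈ LinearEquiv.dilatransvections (ZMod p) V :=
    LinearEquiv.mem_dilatransvections_iff_finrank.mpr hr
  obtain ⟨f, v, hfv⟩ := hm
  have hx : ∀ x, t x = x + f x • v := by
    intro x
    have := congrArg (fun g : V →ₗ[ZMod p] V => g x) hfv
    simpa [LinearMap.transvection.apply] using this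
  refine ⟨v, f, ?_, hx⟩
  have htv : ∀ k : ℕ, (t ^ k) v = (1 + f v) ^ k • v := by
    intro k
    induction k with
    | zero => simp
    | succ k ih =>
      rw [pow_succ', LinearEquiv.mul_apply, ih, map_smul, hx, pow_succ]
      module
  have h3 := htv p
  have hpow : t ^ p = 1 := by
    have h5 := pow_orderOf_eq_one t
    rwa [h1] at h5
  rw [hpow, ZMod.pow_card] at h3
  have h4 : f v • v = 0 := by
    have h5 : v = (1 + f v) • v := h3
    have h6 : (1 + f v) • v = v + f v • v := by module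
    rw [h6] at h5
    simpa using h5.symm
  rcases smul_eq_zero.mp h4 with h5 | h5
  · exact h5
  · simp [h5]

section main

variable [Finite V]

theorem exists_data (hodd : Odd p) (H : Subgroup (V ≃ₗ[ZMod p] V))
    (T : Set (V ≃ₗ[ZMod p] V)) (hHT : H = Subgroup.closure T) (hTel : ∀ t ∈ T, IsTvEl t)
    (hOp : Cfsg.pCore p ↥H = ⊥) : H = ⊥ ∨ ∃ n : ℕ, 1 ≤ n ∧
      ∃ (Kf : Fin n → Subgroup (V ≃ₗ[ZMod p] V)) (πf : Fin n → V →ₗ[ZMod p] V),
        (∀ j, CompData (Kf j) (πf j)) ∧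
        (∀ j j', j ≠ j' → ∀ a ∈ Kf j, ∀ b ∈ Kf j', a * b = b * a) ∧
        (∀ j, Kf j ≤ H) ∧ (∀ j, ∀ h ∈ H, ∀ k ∈ Kf j, h * k * h⁻¹ ∈ Kf j) ∧ ⨆ j, Kf j = H := by
  have h2 := two_ne_zero_of_odd hodd
  have : Finite (V ≃ₗ[ZMod p] V) :=
    Finite.of_injective (fun g : V ≃ₗ[ZMod p] V => (g : V → V)) DFunLike.coe_injective
  -- the transvections in `H`
  let 𝔗 : (V ≃ₗ[ZMod p] V) → Prop := fun g => g ∈ H ∧ IsTvEl g
  have h𝔗conj : ∀ h ∈ H, ∀ g, 𝔗 g → 𝔗 (h * g * h⁻¹) := by
    rintro h hh g ⟨hgH, hg1, v, φ, h0, hx⟩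
    refine ⟨H.mul_mem (H.mul_mem hh hgH) (H.inv_mem hh), ?_, h v,
      φ.comp ((h⁻¹ : V ≃ₗ[ZMod p] V) : V →ₗ[ZMod p] V), by simp [h0], fun x => ?_⟩
    · intro h1
      apply hg1
      have : g = h⁻¹ * (h * g * h⁻¹) * h := by group
      rw [this, h1]
      simp
    · simp only [LinearEquiv.mul_apply, hx, map_add, map_smul]
      simp
  let r : (V ≃ₗ[ZMod p] V) → (V ≃ₗ[ZMod p] V) → Prop := fun g g' => 𝔗 g ∧ 𝔗 g' ∧ g * g' ≠ g' * g
  let mk : (V ≃ₗ[ZMod p] V) → Quot r := Quot.mk r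
  have hT𝔗 : ∀ t ∈ T, 𝔗 t := fun t ht =>
    ⟨by rw [hHT]; exact Subgroup.subset_closure ht, hTel t ht⟩
  -- conjugation does not change the class
  have hmk : ∀ t, 𝔗 t → ∀ g, 𝔗 g → mk (t * g * t⁻¹) = mk g := by
    intro t ht g hg
    by_cases hc : t * g = g * t
    · have : t * g * t⁻¹ = g := by rw [hc]; group
      rw [this]
    · have e1 : mk t = mk g := Quot.sound ⟨ht, hg, hc⟩
      have e2 : mk t = mk (t * g * t⁻¹) := by
        refine Quot.sound ⟨ht, h𝔗conj t ht.1 g hg, ?_⟩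
        intro h3
        apply hc
        have h4 : t * g * t⁻¹ * t = t * g := by group
        rw [h4] at h3
        have h5 : t * (t * g * t⁻¹) = t * g := h3
        have h6 := mul_left_cancel h5
        calc t * g = t * g * t⁻¹ * t := by group
          _ = g * t := by rw [h6]
      rw [← e2, e1]
  have hmkH : ∀ h ∈ H, ∀ g, 𝔗 g → mk (h * g * h⁻¹) = mk g := by
    intro h hh
    rw [hHT] at hh
    induction hh using Subgroup.closure_induction with
    | mem t ht => exact fun g hg => hmk t (hT𝔗 t ht) g hg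
    | one => intro g _; simp
    | mul a b ha hb iha ihb =>
      intro g hg
      have hb' : b ∈ H := by rw [hHT]; exact hb
      have e : a * b * g * (a * b)⁻¹ = a * (b * g * b⁻¹) * a⁻¹ := by group
      rw [e, iha _ (h𝔗conj b hb' g hg), ihb g hg]
    | inv a ha iha =>
      intro g hg
      have ha' : a ∈ H := by rw [hHT]; exact ha
      have hg' := h𝔗conj a⁻¹ (H.inv_mem ha') g hg
      have e := iha _ hg'
      have e2 : a * (a⁻¹ * g * a⁻¹⁻¹) * a⁻¹ = g := by group
      rw [e2] at e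
      exact e.symm
  -- the classes
  let ι := {c : Quot r // ∃ g, 𝔗 g ∧ mk g = c}
  let Cs : ι → Set (V ≃ₗ[ZMod p] V) := fun c => {g | 𝔗 g ∧ mk g = c.1}
  let Ks : ι → Subgroup (V ≃ₗ[ZMod p] V) := fun c => Subgroup.closure (Cs c)
  have hKH : ∀ c, Ks c ≤ H := by
    intro c
    rw [Subgroup.closure_le]
    rintro g ⟨hg, -⟩
    exact hg.1
  have hKnorm : ∀ c, ∀ h ∈ H, ∀ k ∈ Ks c, h * k * h⁻¹ ∈ Ks c := by
    intro c h hh k hk
    have hle : Ks c ≤ (Ks c).comap (MulAut.conj h).toMonoidHom := by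
      rw [Subgroup.closure_le]
      rintro g ⟨hg, hgc⟩
      refine Subgroup.subset_closure ⟨h𝔗conj h hh g hg, ?_⟩
      rw [← hgc]
      exact hmkH h hh g hg
    exact hle hk
  have hKcomm : ∀ c c' : ι, c ≠ c' → ∀ a ∈ Ks c, ∀ b ∈ Ks c', a * b = b * a := by
    intro c c' hne
    have h1 : ∀ a ∈ Cs c, ∀ b ∈ Cs c', a * b = b * a := by
      rintro a ⟨ha, hac⟩ b ⟨hb, hbc⟩
      by_contra hc
      apply hne
      apply Subtype.ext
      rw [← hac, ← hbc]
      exact Quot.sound ⟨ha, hb, hc⟩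
    have h3 : Ks c' ≤ Subgroup.centralizer (Cs c) := by
      rw [Subgroup.closure_le]
      intro b hb
      rw [SetLike.mem_coe, Subgroup.mem_centralizer_iff]
      intro a ha
      exact h1 a ha b hb
    have h4 : Ks c ≤ Subgroup.centralizer (Ks c' : Set (V ≃ₗ[ZMod p] V)) := by
      rw [Subgroup.closure_le]
      intro a ha
      rw [SetLike.mem_coe, Subgroup.mem_centralizer_iff]
      intro b hb
      have := h3 hb
      rw [Subgroup.mem_centralizer_iff] at this
      exact (this a ha).symm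
    intro a ha b hb
    have := h4 ha
    rw [Subgroup.mem_centralizer_iff] at this
    exact (this b hb).symm
  have hdata : ∀ c, ∃ π : V →ₗ[ZMod p] V, CompData (Ks c) π := by
    intro c
    refine component h2 (fun g hg => hg.1.2) ?_ ?_
      (hyp_of_normal hodd H hOp (Ks c) (hKH c) (hKnorm c))
    · obtain ⟨g, hg, hgc⟩ := c.2
      exact ⟨g, hg, hgc⟩
    · intro Q hstep ⟨g₀, hg₀, hQ₀⟩ g hg
      let Q' : (V ≃ₗ[ZMod p] V) → Prop := fun x => x ∈ Cs c ∧ Q x
      have key : ∀ a b, Relation.EqvGen r a b → (Q' a ↔ Q' b) := by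
        intro a b hab
        induction hab with
        | rel a b hr =>
          obtain ⟨ha, hb, hne⟩ := hr
          have hm : mk a = mk b := Quot.sound ⟨ha, hb, hne⟩
          constructor
          · rintro ⟨⟨_, hac⟩, hQa⟩
            have hb' : b ∈ Cs c := ⟨hb, by rw [← hm]; exact hac⟩
            exact ⟨hb', hstep a ⟨ha, hac⟩ b hb' hne hQa⟩
          · rintro ⟨⟨_, hbc⟩, hQb⟩
            have ha' : a ∈ Cs c := ⟨ha, by rw [hm]; exact hbc⟩
            exact ⟨ha', hstep b ⟨hb, hbc⟩ a ha' (Ne.symm hne) hQb⟩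
        | refl a => exact Iff.rfl
        | symm a b _ ih => exact ih.symm
        | trans a b c _ _ ih1 ih2 => exact ih1.trans ih2
      have hm : mk g₀ = mk g := hg₀.2.trans hg.2.symm
      exact ((key g₀ g (Quot.eqvGen_exact hm)).mp ⟨hg₀, hQ₀⟩).2
  choose πs hπs using hdata
  have hsup : ⨆ c, Ks c = H := by
    apply le_antisymm (iSup_le hKH)
    rw [hHT, Subgroup.closure_le]
    intro t ht
    have h𝔗t := hT𝔗 t ht
    have h1 : t ∈ Ks ⟨mk t, t, h𝔗t, rfl⟩ := Subgroup.subset_closure ⟨h𝔗t, rfl⟩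
    exact (le_iSup Ks _) h1
  by_cases hι : Nonempty ι
  · right
    have : Finite ι := Subtype.finite
    let e := (Finite.equivFin ι).symm
    refine ⟨Nat.card ι, ?_, fun j => Ks (e j), fun j => πs (e j), fun j => hπs _, ?_,
      fun j => hKH _, fun j => hKnorm _, ?_⟩
    · exact Nat.one_le_iff_ne_zero.mpr (Nat.card_ne_zero.mpr ⟨hι, inferInstance⟩)
    · intro j j' hj
      exact hKcomm _ _ (fun h => hj (e.injective h))
    · rw [← hsup]
      exact e.surjective.iSup_comp Ks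
  · left
    rw [← hsup]
    rw [eq_bot_iff]
    refine iSup_le fun c => ?_
    exact absurd ⟨c⟩ hι

/-- McLaughlin's theorem for `𝔽_p`, `p` odd. -/
theorem mclaughlin (hodd : Odd p) (H : Subgroup (V ≃ₗ[ZMod p] V))
    (T : Set (V ≃ₗ[ZMod p] V)) (hHT : H = Subgroup.closure T)
    (hT : ∀ t ∈ T, orderOf t = p ∧
      Module.finrank (ZMod p) ↥(LinearMap.ker ((t : V →ₗ[ZMod p] V) - LinearMap.id)) + 1 =
        Module.finrank (ZMod p) V)
    (hOp : Cfsg.pCore p ↥H = ⊥) : McLConcl p V H := by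
  rcases exists_data hodd H T hHT (fun t ht => isTvEl_of_hyperplane (hT t ht).1 (hT t ht).2) hOp with
    hbot | ⟨n, hn, Kf, πf, hd, hc, hle, hnorm, hsup⟩
  · exact concl_of_bot H hbot
  · exact concl_of_data hn H Kf πf hd hc hle hnorm hsup

end main

end Cfsg.Agent.Lib.McLH39
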