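import Mathlib
import Cfsg.Agent.Lib.Metacyclic
import Cfsg.Agent.Lib.ExtraBasics
import Cfsg.Agent.S0638

set_option autoImplicit false
set_option linter.unusedSectionVars false
set_option linter.style.haveILetI false
set_option linter.unusedVariables false

namespace Cfsg.Agent.Lib.MetaOmega

open Cfsg.Agent.Lib.Metacyclic
open scoped commutatorElement

universe u

lemma meta_sub {L : Type*} [Group L] (hm : Cfsg.IsMetacyclic L) (K : Subgroup L) : Cfsg.IsMetacyclic K := by
  obtain ⟨N, hN, hc, hq⟩ := hm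
  refine ⟨N.subgroupOf K, inferInstance, ?_, ?_⟩
  · let f : N.subgroupOf K →* N :=
      { toFun := fun x => ⟨x.1.1, Subgroup.mem_subgroupOf.1 x.2⟩
        map_one' := rfl
        map_mul' := fun _ _ => rfl }
    refine isCyclic_of_injective f ?_
    intro x y hxy
    have h : (f x).1 = (f y).1 := by rw [hxy]
    exact Subtype.ext (Subtype.ext h)
  · let f : K ⧸ N.subgroupOf K →* L ⧸ N :=
      QuotientGroup.map (N.subgroupOf K) N K.subtype (fun x hx => Subgroup.mem_subgroupOf.1 hx)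
    refine isCyclic_of_injective f ?_
    intro x y hxy
    obtain ⟨x, rfl⟩ := QuotientGroup.mk_surjective x
    obtain ⟨y, rfl⟩ := QuotientGroup.mk_surjective y
    have h1 : ((x : L) : L ⧸ N) = ((y : L) : L ⧸ N) := hxy
    have h2 := QuotientGroup.eq.1 h1
    exact QuotientGroup.eq.2 (Subgroup.mem_subgroupOf.2 h2)

section Comm

variable {L : Type*} [Group L] [Finite L] {p : ℕ} [hp : Fact p.Prime]
  (hp2 : p ≠ 2) (hL : IsPGroup p L) (hm : Cfsg.IsMetacyclic L)

include hp2 hL hm

/-- The derived subgroup of a subgroup generated by two elements of order at most `p²` has order at most `p`. -/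
lemma card_comm_le {x y : L} (hx : x ^ p ^ 2 = 1) (hy : y ^ p ^ 2 = 1) :
    Nat.card (commutator (Subgroup.closure ({x, y} : Set L))) ≤ p := by
  have hpp := hp.out
  set K := Subgroup.closure ({x, y} : Set L) with hK
  obtain ⟨n, hn, ⟨D⟩⟩ := exists_n_data hp2 (hL.to_subgroup K) (meta_sub hm K)
  by_contra hcon
  have hn2 : 2 ≤ n := by
    by_contra h
    have : n = 0 ∨ n = 1 := by omega
    apply hcon
    rw [hn]
    rcases this with rfl | rfl
    · simpa using hpp.one_lt.le
    · simp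
  have hall : ∀ g, ∀ hg : g ∈ K, (⟨g, hg⟩ : K) ^ p ^ n = 1 := by
    intro g hg
    induction hg using Subgroup.closure_induction with
    | mem g hg =>
      have h1 : g ^ p ^ 2 = 1 := by
        rcases hg with rfl | rfl
        · exact hx
        · exact hy
      have h2 : g ^ p ^ n = 1 := by
        obtain ⟨d, rfl⟩ : ∃ d, n = 2 + d := ⟨n - 2, by omega⟩
        rw [pow_add, pow_mul, h1, one_pow]
      apply Subtype.ext
      simpa using h2
    | one =>
      show (1 : K) ^ p ^ n = 1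
      exact one_pow _
    | mul a b ha hb iha ihb =>
      have e : (⟨a * b, mul_mem ha hb⟩ : K) = ⟨a, ha⟩ * ⟨b, hb⟩ := rfl
      rw [e, D.pow_pn_mul, iha, ihb, one_mul]
    | inv a ha iha =>
      have e : (⟨a⁻¹, inv_mem ha⟩ : K) = (⟨a, ha⟩ : K)⁻¹ := rfl
      rw [e, inv_pow, iha, inv_one]
  have h1 : D.a ^ p ^ n = 1 := by
    have := hall D.a.1 D.a.2
    simpa using this
  obtain ⟨w', hw'⟩ := D.hw
  have h2 : (D.a ^ D.w) ^ p ^ (n - 1) = 1 := by
    rw [hw', ← pow_mul, show p * w' * p ^ (n - 1) = p ^ n * w' by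
      obtain ⟨d, rfl⟩ : ∃ d, n = d + 1 := ⟨n - 1, by omega⟩
      simp only [Nat.add_sub_cancel]
      ring, pow_mul, h1, one_pow]
  have h3 := orderOf_dvd_of_pow_eq_one h2
  rw [D.hc] at h3
  have h4 := (Nat.pow_dvd_pow_iff_le_right hpp.one_lt).1 h3
  omega

/-- Commutators of elements of order at most `p²`: central in the generated subgroup, of order dividing `p`. -/
lemma comm_central {x y : L} (hx : x ^ p ^ 2 = 1) (hy : y ^ p ^ 2 = 1) :
    ⁅x, y⁆ ^ p = 1 ∧ x * ⁅x, y⁆ = ⁅x, y⁆ * x ∧ y * ⁅x, y⁆ = ⁅x, y⁆ * y := by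
  have hpp := hp.out
  set K := Subgroup.closure ({x, y} : Set L) with hK
  have hxK : x ∈ K := Subgroup.subset_closure (by simp)
  have hyK : y ∈ K := Subgroup.subset_closure (by simp)
  have hc := card_comm_le hp2 hL hm hx hy
  rw [← hK] at hc
  set X : K := ⟨x, hxK⟩
  set Y : K := ⟨y, hyK⟩
  have hcm : ⁅X, Y⁆ ∈ commutator K := Subgroup.commutator_mem_commutator (Subgroup.mem_top _) (Subgroup.mem_top _)
  have hKp : IsPGroup p K := hL.to_subgroup K
  have hCp : IsPGroup p (commutator K) := hKp.to_subgroup _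
  have hord : ⁅X, Y⁆ ^ p = 1 := by
    obtain ⟨k, hk⟩ := IsPGroup.iff_card.1 hCp
    have hk1 : k ≤ 1 := by
      by_contra h
      have : p ^ 2 ≤ p ^ k := Nat.pow_le_pow_right hpp.pos (by omega)
      rw [← hk] at this
      nlinarith [hpp.two_le]
    have h1 := pow_card_eq_one' (x := (⟨⁅X, Y⁆, hcm⟩ : commutator K))
    rw [hk] at h1
    have h2 : (⟨⁅X, Y⁆, hcm⟩ : commutator K) ^ p = 1 := by
      rcases Nat.le_one_iff_eq_zero_or_eq_one.1 hk1 with rfl | rfl
      · rw [pow_zero, pow_one] at h1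
        rw [h1, one_pow]
      · rwa [pow_one] at h1
    have := congrArg Subtype.val h2
    simpa using this
  have hcen : ⁅X, Y⁆ ∈ Subgroup.center K := by
    obtain ⟨k, hk⟩ := IsPGroup.iff_card.1 hCp
    have hk1 : k ≤ 1 := by
      by_contra h
      have : p ^ 2 ≤ p ^ k := Nat.pow_le_pow_right hpp.pos (by omega)
      rw [← hk] at this
      nlinarith [hpp.two_le]
    rcases Nat.le_one_iff_eq_zero_or_eq_one.1 hk1 with rfl | rfl
    · have h1 : Nat.card (commutator K) = 1 := by simpa using hk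
      have h2 := (Subgroup.card_eq_one).1 h1
      rw [h2, Subgroup.mem_bot] at hcm
      rw [hcm]
      exact one_mem _
    · have h1 : Nat.card (commutator K) = p := by simpa using hk
      exact Cfsg.Agent.Lib.ExtraBasics.le_center_of_normal_of_card hKp (commutator K) h1 hcm
  have e : ((⁅X, Y⁆ : K) : L) = ⁅x, y⁆ := rfl
  refine ⟨?_, ?_, ?_⟩
  · exact congrArg Subtype.val hord
  · have h1 := (Subgroup.mem_center_iff.1 hcen) X
    exact congrArg Subtype.val h1
  · have h1 := (Subgroup.mem_center_iff.1 hcen) Y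
    exact congrArg Subtype.val h1

/-- The `p`-th power is multiplicative on elements of order at most `p²`. -/
theorem mul_pow_W {x y : L} (hx : x ^ p ^ 2 = 1) (hy : y ^ p ^ 2 = 1) : (x * y) ^ p = x ^ p * y ^ p := by
  have hpp := hp.out
  obtain ⟨h1, h2, h3⟩ := comm_central hp2 hL hm hy hx
  set c := ⁅y, x⁆ with hc
  have hyx : y * x = c * (x * y) := by
    rw [hc, commutatorElement_def]
    group
  have hymul : ∀ k : ℕ, y ^ k * x = c ^ k * (x * y ^ k) := by
    intro k
    induction k with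
    | zero => simp
    | succ k ih =>
      have hc'' : Commute c y := Commute.symm h2
      have e1 : y ^ k * c = c * y ^ k := ((hc''.pow_right k).symm).eq
      calc y ^ (k + 1) * x = y ^ k * (y * x) := by rw [pow_succ, mul_assoc]
        _ = y ^ k * (c * (x * y)) := by rw [hyx]
        _ = (y ^ k * c) * (x * y) := by group
        _ = (c * y ^ k) * (x * y) := by rw [e1]
        _ = c * (y ^ k * x) * y := by group
        _ = c * (c ^ k * (x * y ^ k)) * y := by rw [ih]
        _ = c ^ (k + 1) * (x * y ^ (k + 1)) := by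
          rw [pow_succ' c k, pow_succ y k]
          group
  have hmain : ∀ n : ℕ, (x * y) ^ n = c ^ (n.choose 2) * (x ^ n * y ^ n) := by
    intro n
    induction n with
    | zero => simp
    | succ n ih =>
      rw [pow_succ, ih, Nat.choose_succ_succ' n 1, Nat.choose_one_right]
      have hc' : Commute c x := Commute.symm h3
      have hc'' : Commute c y := Commute.symm h2
      calc c ^ n.choose 2 * (x ^ n * y ^ n) * (x * y)
          = c ^ n.choose 2 * x ^ n * (y ^ n * x) * y := by group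
        _ = c ^ n.choose 2 * x ^ n * (c ^ n * (x * y ^ n)) * y := by rw [hymul]
        _ = c ^ n.choose 2 * (x ^ n * c ^ n) * x * y ^ n * y := by group
        _ = c ^ n.choose 2 * (c ^ n * x ^ n) * x * y ^ n * y := by
          rw [((hc'.pow_left n).pow_right n).symm.eq]
        _ = _ := by
          rw [show n.choose (1 + 1) = n.choose 2 from rfl, pow_add c, pow_succ x, pow_succ y,
            (Commute.pow_pow (Commute.refl c) n (n.choose 2)).eq]
          group
  rw [hmain]
  have hd : p ∣ p.choose 2 := hpp.dvd_choose_self (by norm_num) (by have := hpp.two_le; omega)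
  obtain ⟨q, hq⟩ := hd
  rw [hq, pow_mul, h1, one_pow, one_mul]

/-- Elements of order `p` which are `p`-th powers commute with the elements of order at most `p²`. -/
theorem comm_pow_W {x v : L} (hx : x ^ p ^ 2 = 1) (hv : v ^ p ^ 2 = 1) : x * v ^ p = v ^ p * x := by
  obtain ⟨h1, h2, h3⟩ := comm_central hp2 hL hm hx hv
  set c := ⁅x, v⁆ with hc
  have e : x * v * x⁻¹ = c * v := by
    rw [hc, commutatorElement_def]
    group
  have e2 : x * v ^ p * x⁻¹ = v ^ p := by
    rw [← conj_pow, e]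
    have hcv : Commute c v := Commute.symm h3
    rw [hcv.mul_pow, h1, one_mul]
  calc x * v ^ p = x * v ^ p * x⁻¹ * x := by group
    _ = v ^ p * x := by rw [e2]

end Comm

section Roots

variable {L : Type*} [Group L] [Finite L] {p : ℕ} [hp : Fact p.Prime]
  (hp2 : p ≠ 2) (hL : IsPGroup p L) (hm : Cfsg.IsMetacyclic L)
  (hnc : ∀ C : Subgroup L, IsCyclic C → C.index ≠ p) (hne : Nontrivial L)

include hp2 hL hm hnc hne

/-- `L` is not cyclic. -/
lemma not_cyclic : ¬ IsCyclic L := by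
  intro h
  have hpp := hp.out
  obtain ⟨g, hg⟩ := h.exists_generator
  obtain ⟨k, hk⟩ := IsPGroup.iff_card.1 hL
  have hk0 : k ≠ 0 := by
    rintro rfl
    have h1 : Nat.card L = 1 := by simpa using hk
    exact not_nontrivial_iff_subsingleton.2 ((Nat.card_eq_one_iff_unique.1 h1).1) hne
  have hcy : IsCyclic (Subgroup.zpowers (g ^ p)) := inferInstance
  apply hnc _ hcy
  have hord : orderOf g = p ^ k := by
    rw [← hk]
    exact orderOf_eq_card_of_forall_mem_zpowers hg
  have h1 : orderOf (g ^ p) = p ^ (k - 1) := by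
    rw [orderOf_pow' g hpp.ne_zero, hord, Nat.gcd_eq_right (dvd_pow_self p hk0)]
    obtain ⟨d, rfl⟩ : ∃ d, k = d + 1 := ⟨k - 1, by omega⟩
    simp [pow_succ, hpp.pos]
  have h2 := Subgroup.card_mul_index (Subgroup.zpowers (g ^ p))
  rw [Nat.card_zpowers, h1, hk] at h2
  obtain ⟨d, rfl⟩ : ∃ d, k = d + 1 := ⟨k - 1, by omega⟩
  simp only [Nat.add_sub_cancel] at h2
  rw [pow_succ] at h2
  exact Nat.eq_of_mul_eq_mul_left (pow_pos hpp.pos _) h2

/-- Every element of order dividing `p` is a `p`-th power. -/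
theorem exists_root {ω : L} (hω : ω ^ p = 1) : ∃ v : L, v ^ p = ω := by
  classical
  have hpp := hp.out
  obtain ⟨n, -, ⟨D⟩⟩ := exists_n_data hp2 hL hm
  have hncy := not_cyclic hp2 hL hm hnc hne
  -- the subgroup generated by `b` has index different from `1` and `p`, and so it doesn't contain `a ^ p`
  have hab : ∀ g : L, ∃ t, t < p ∧ ∃ j i : ℕ, g = D.a ^ t * D.a ^ (p * i) * D.b ^ j := by
    intro g
    obtain ⟨i, j, rfl⟩ := D.hdec g
    refine ⟨i % p, Nat.mod_lt _ hpp.pos, j, i / p, ?_⟩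
    rw [← pow_add, Nat.mod_add_div]
  have hap : D.a ^ p ∉ Subgroup.zpowers D.b := by
    intro h
    -- the index is at most p
    have hle : (Subgroup.zpowers D.b).index ≤ p := by
      rw [Subgroup.index_eq_card]
      let f : Fin p → L ⧸ Subgroup.zpowers D.b := fun t => ((D.a ^ (t : ℕ) : L) : L ⧸ Subgroup.zpowers D.b)
      have hf : Function.Surjective f := by
        intro q
        obtain ⟨g, rfl⟩ := QuotientGroup.mk_surjective q
        obtain ⟨t, ht, j, i, rfl⟩ := hab g
        refine ⟨⟨t, ht⟩, ?_⟩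
        apply QuotientGroup.eq.2
        have e : (D.a ^ t)⁻¹ * (D.a ^ t * D.a ^ (p * i) * D.b ^ j) = (D.a ^ p) ^ i * D.b ^ j := by
          rw [pow_mul]
          group
        show (D.a ^ t)⁻¹ * (D.a ^ t * D.a ^ (p * i) * D.b ^ j) ∈ Subgroup.zpowers D.b
        rw [e]
        exact mul_mem (pow_mem h i) (pow_mem (Subgroup.mem_zpowers _) j)
      have h1 := Nat.card_le_card_of_surjective f hf
      simpa using h1
    have hdvd : (Subgroup.zpowers D.b).index ∣ p ^ (Nat.log p (Nat.card L)) := by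
      obtain ⟨k, hk⟩ := IsPGroup.iff_card.1 hL
      rw [hk, Nat.log_pow hpp.one_lt, ← hk]
      exact Subgroup.index_dvd_card _
    obtain ⟨e, -, he⟩ := (Nat.dvd_prime_pow hpp).1 hdvd
    rcases e with _ | e
    · rw [pow_zero] at he
      have h2 : Subgroup.zpowers D.b = ⊤ := Subgroup.index_eq_one.1 he
      exact hncy (isCyclic_iff_exists_zpowers_eq_top.2 ⟨D.b, h2⟩)
    · have h2 : p ^ (e + 1) ≤ p := by rw [← he]; exact hle
      have h3 : e = 0 := by
        by_contra hh
        have : p ^ 2 ≤ p ^ (e + 1) := Nat.pow_le_pow_right hpp.pos (by omega)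
        nlinarith [hpp.two_le]
      subst h3
      exact hnc _ inferInstance (by rw [he, pow_one])
  have hAn : (Subgroup.zpowers D.a).Normal := by
    constructor
    intro n hn g
    obtain ⟨z, rfl⟩ := Subgroup.mem_zpowers_iff.1 hn
    rw [← conj_zpow]
    refine zpow_mem ?_ z
    obtain ⟨i, j, rfl⟩ := D.hdec g
    have h1 := D.b_pow_mul_a_pow 1 j
    have h2 : D.b ^ j * D.a ^ 1 * (D.b ^ j)⁻¹ = D.a ^ (1 * D.u ^ j) := by
      rw [h1]
      group
    have e : D.a ^ i * D.b ^ j * D.a * (D.a ^ i * D.b ^ j)⁻¹ = D.a ^ i * (D.b ^ j * D.a ^ 1 * (D.b ^ j)⁻¹) * (D.a ^ i)⁻¹ := by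
      group
    rw [e, h2]
    exact mul_mem (mul_mem (pow_mem (Subgroup.mem_zpowers _) _) (pow_mem (Subgroup.mem_zpowers _) _))
      (inv_mem (pow_mem (Subgroup.mem_zpowers _) _))
  have hbp : D.b ^ p ∉ Subgroup.zpowers D.a := by
    intro h
    have hle : (Subgroup.zpowers D.a).index ≤ p := by
      rw [Subgroup.index_eq_card]
      let f : Fin p → L ⧸ Subgroup.zpowers D.a := fun t => ((D.b ^ (t : ℕ) : L) : L ⧸ Subgroup.zpowers D.a)
      have hf : Function.Surjective f := by
        intro q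
        obtain ⟨g, rfl⟩ := QuotientGroup.mk_surjective q
        obtain ⟨i, j, rfl⟩ := D.hdec g
        refine ⟨⟨j % p, Nat.mod_lt _ hpp.pos⟩, ?_⟩
        apply QuotientGroup.eq.2
        show (D.b ^ (j % p))⁻¹ * (D.a ^ i * D.b ^ j) ∈ Subgroup.zpowers D.a
        have e : (D.b ^ (j % p))⁻¹ * (D.a ^ i * D.b ^ j) =
            (D.b ^ (j % p))⁻¹ * D.a ^ i * (D.b ^ (j % p))⁻¹⁻¹ * (D.b ^ p) ^ (j / p) := by
          have hj : D.b ^ j = D.b ^ (j % p) * (D.b ^ p) ^ (j / p) := by
            rw [← pow_mul, ← pow_add, Nat.mod_add_div]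
          rw [hj]
          group
        rw [e]
        exact mul_mem (hAn.conj_mem _ (pow_mem (Subgroup.mem_zpowers _) _) _) (pow_mem h _)
      have h1 := Nat.card_le_card_of_surjective f hf
      simpa using h1
    have hdvd : (Subgroup.zpowers D.a).index ∣ p ^ (Nat.log p (Nat.card L)) := by
      obtain ⟨k, hk⟩ := IsPGroup.iff_card.1 hL
      rw [hk, Nat.log_pow hpp.one_lt, ← hk]
      exact Subgroup.index_dvd_card _
    obtain ⟨e, -, he⟩ := (Nat.dvd_prime_pow hpp).1 hdvd
    rcases e with _ | e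
    · rw [pow_zero] at he
      have h2 : Subgroup.zpowers D.a = ⊤ := Subgroup.index_eq_one.1 he
      exact hncy (isCyclic_iff_exists_zpowers_eq_top.2 ⟨D.a, h2⟩)
    · have h2 : p ^ (e + 1) ≤ p := by rw [← he]; exact hle
      have h3 : e = 0 := by
        by_contra hh
        have : p ^ 2 ≤ p ^ (e + 1) := Nat.pow_le_pow_right hpp.pos (by omega)
        nlinarith [hpp.two_le]
      subst h3
      exact hnc _ inferInstance (by rw [he, pow_one])
  have hcop : ∀ (x : L) (e : ℕ), ¬ p ∣ e → Nat.Coprime e (orderOf x) := by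
    intro x e he
    obtain ⟨k, hk⟩ := IsPGroup.iff_card.1 hL
    have h1 : orderOf x ∣ p ^ k := by
      rw [← hk]
      exact orderOf_dvd_natCard x
    obtain ⟨d, -, hd⟩ := (Nat.dvd_prime_pow hpp).1 h1
    rw [hd]
    exact Nat.Coprime.pow_right d ((Nat.Prime.coprime_iff_not_dvd hpp).2 he).symm
  obtain ⟨i, j, rfl⟩ := D.hdec ω
  have hu : ∀ j : ℕ, ((D.u ^ j : ℕ) : ZMod p) = 1 := by
    intro j
    push_cast
    rw [D.hu, one_pow]
  have hgs : ∀ j : ℕ, ∃ e, gs (D.u ^ j) p = p * e ∧ ¬ p ∣ e := by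
    intro j
    obtain ⟨e, he⟩ := (dvd_gs_iff hp2 (hu j) 1 p).2 (by simp)
    rw [pow_one] at he
    refine ⟨e, he, fun hd => ?_⟩
    have h2 : p ^ 2 ∣ gs (D.u ^ j) p := by
      rw [he, pow_two]
      exact Nat.mul_dvd_mul_left p hd
    have h3 := (dvd_gs_iff hp2 (hu j) 2 p).1 h2
    have h4 := Nat.le_of_dvd hpp.pos h3
    nlinarith [hpp.two_le]
  rw [D.pow_formula] at hω
  obtain ⟨e, he, hep⟩ := hgs j
  rw [he] at hω
  have hω1 : D.a ^ (i * (p * e)) = (D.b ^ (j * p))⁻¹ := eq_inv_of_mul_eq_one_left hω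
  -- `p ∣ j`
  have hj : p ∣ j := by
    by_contra hj
    obtain ⟨m, hm⟩ := exists_pow_eq_self_of_coprime (hcop (D.b ^ p) j hj)
    apply hbp
    rw [← hm]
    have h1 : (D.b ^ p) ^ j = (D.a ^ (i * (p * e)))⁻¹ := by
      rw [hω1, inv_inv, ← pow_mul, mul_comm]
    rw [h1]
    exact pow_mem (inv_mem (pow_mem (Subgroup.mem_zpowers _) _)) _
  -- `p ∣ i`
  have hi : p ∣ i := by
    by_contra hi
    have hie : ¬ p ∣ i * e := fun h => (hpp.dvd_mul.1 h).elim hi hep
    obtain ⟨m, hm⟩ := exists_pow_eq_self_of_coprime (hcop (D.a ^ p) (i * e) hie)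
    apply hap
    rw [← hm]
    have h1 : (D.a ^ p) ^ (i * e) = (D.b ^ (j * p))⁻¹ := by
      rw [← hω1, ← pow_mul]
      congr 1
      ring
    rw [h1]
    exact pow_mem (inv_mem (pow_mem (Subgroup.mem_zpowers _) _)) _
  obtain ⟨i₀, rfl⟩ := hi
  obtain ⟨j₁, rfl⟩ := hj
  obtain ⟨e₁, he₁, hep₁⟩ := hgs j₁
  obtain ⟨m, hm⟩ := exists_pow_eq_self_of_coprime (hcop (D.a ^ p) e₁ hep₁)
  refine ⟨D.a ^ (m * i₀) * D.b ^ j₁, ?_⟩
  rw [D.pow_formula, he₁, mul_comm j₁ p]
  congr 1
  calc D.a ^ (m * i₀ * (p * e₁)) = (((D.a ^ p) ^ e₁) ^ m) ^ i₀ := by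
        rw [← pow_mul, ← pow_mul, ← pow_mul]
        congr 1
        ring
    _ = D.a ^ (p * i₀) := by rw [hm, pow_mul]

end Roots

end Cfsg.Agent.Lib.MetaOmega
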