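/-
MetaSuperAut: prime-to-`p` groups of automorphisms of a non-abelian metacyclic `p`-group, `p` odd, are
abelian of exponent dividing `p - 1`.
-/
import Mathlib
import Cfsg.Agent.Lib.MetaAct
import Cfsg.Agent.Lib.FusionMetaStab
import Cfsg.Agent.Lib.FusionSuper
import Cfsg.Agent.Lib.Huppert2
import Cfsg.Agent.Lib.Frat

set_option autoImplicit false

namespace Cfsg.Agent.Lib.MetaSuperAut

open Cfsg Subgroup
open scoped commutatorElement

variable {R : Type*} [Group R] [Finite R] {p : ℕ} [hp : Fact p.Prime]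

/-- An automorphism of order prime to `p` stabilizing a chain through the Frattini subgroup is trivial. -/
theorem eq_one_of_chain (hR : IsPGroup p R) (M : Subgroup R) (hΦ : frattini R ≤ M) (β : MulAut R)
    (hβ : (orderOf β).Coprime p) (h1 : ∀ x, x⁻¹ * β x ∈ M) (h2 : ∀ x ∈ M, x⁻¹ * β x ∈ frattini R) :
    β = 1 := by
  classical
  let π := QuotientGroup.mk' (frattini R)
  have hπ : ∀ x, π x = 1 ↔ x ∈ frattini R := fun x => QuotientGroup.eq_one_iff x
  have hcomm : ∀ a b : R, π a * π b = π b * π a := by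
    intro a b
    rw [← map_mul, ← map_mul]
    apply (QuotientGroup.eq).2
    have h3 : (a * b)⁻¹ * (b * a) ∈ commutator R := by
      have h5 : (a * b)⁻¹ * (b * a) = ⁅b⁻¹, a⁻¹⁆ := by
        simp [commutatorElement_def, mul_assoc]
      rw [h5]
      exact Subgroup.commutator_mem_commutator (Subgroup.mem_top _) (Subgroup.mem_top _)
    exact (Cfsg.Agent.Lib.Frat.commutator_le_frattini hR) h3
  -- fixes elements of `M` modulo Frattini
  have hM : ∀ x ∈ M, β x ∈ M := by
    intro x hx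
    have h3 := M.mul_mem hx (hΦ (h2 x hx))
    simpa using h3
  have hfixM : ∀ x ∈ M, π (β x) = π x := by
    intro x hx
    have h3 := h2 x hx
    exact ((QuotientGroup.eq).2 h3).symm
  have hiter : ∀ k : ℕ, ∀ x ∈ M, π ((β ^ k) x) = π x ∧ (β ^ k) x ∈ M := by
    intro k
    induction k with
    | zero => intro x hx; exact ⟨rfl, hx⟩
    | succ k ih =>
      intro x hx
      have h3 : (β ^ (k + 1)) x = β ((β ^ k) x) := by rw [pow_succ']; rfl
      rw [h3]
      obtain ⟨h4, h5⟩ := ih x hx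
      exact ⟨(hfixM _ h5).trans h4, hM _ h5⟩
  have hpow : ∀ k : ℕ, ∀ x, π ((β ^ k) x) = π (x⁻¹ * β x) ^ k * π x := by
    intro k
    induction k with
    | zero => intro x; simp
    | succ k ih =>
      intro x
      have h3 : (β ^ (k + 1)) x = (β ^ k) (x * (x⁻¹ * β x)) := by
        rw [pow_succ]
        simp
      rw [h3, map_mul, map_mul, ih x, (hiter k _ (h1 x)).1, pow_succ]
      rw [mul_assoc, mul_assoc, hcomm x (x⁻¹ * β x)]
  have htr : ∀ x, (β ^ p) x * x⁻¹ ∈ frattini R := by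
    intro x
    rw [← hπ, map_mul, hpow p x, map_inv]
    have h3 : π (x⁻¹ * β x) ^ p = 1 := by
      rw [← map_pow, hπ]
      exact Cfsg.Agent.Lib.Frat.pow_mem_frattini hR _
    rw [h3]
    simp
  obtain ⟨k, hk⟩ := Cfsg.Agent.Lib.FusionMetaStab.pow_of_trivial_frattini hR (β ^ p) htr
  have h4 : β ^ (p * p ^ k) = 1 := by rw [pow_mul, hk]
  have h5 : orderOf β ∣ p ^ (k + 1) := by
    apply orderOf_dvd_of_pow_eq_one
    rw [pow_succ']
    exact h4
  have h6 : (orderOf β).Coprime (p ^ (k + 1)) := Nat.Coprime.pow_right _ hβ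
  have h7 := Nat.Coprime.eq_one_of_dvd h6 h5
  exact orderOf_eq_one_iff.1 h7

/-- The main theorem of this file. -/
theorem abelian_of_nonabelian (hp2 : p ≠ 2) (hR : IsPGroup p R) (hm : IsMetacyclic R)
    (hna : ¬ ∀ x y : R, x * y = y * x) (H : Subgroup (MulAut R)) (hH : (Nat.card H).Coprime p) :
    IsMulCommutative H ∧ ∀ h ∈ H, h ^ (p - 1) = 1 := by
  classical
  have hpp := hp.out
  set T : Subgroup R := closure {x : R | ∃ g : R, ∃ a ∈ H, x = g⁻¹ * a g} with hT
  have hTne : T ≠ ⊤ := fun h => hna (Cfsg.Agent.Lib.MetaAct.comm_of_metacyclic hp2 hR hm H hH h)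
  haveI : Finite (Subgroup R) := inferInstance
  obtain ⟨M, hMc, hTM⟩ := (eq_top_or_exists_le_coatom T).resolve_left hTne
  have hΦ : frattini R ≤ M := frattini_le_coatom hMc
  have hMidx : M.index = p := Cfsg.Agent.Lib.Frat.index_eq_of_isCoatom hR hMc
  have hMH : ∀ a ∈ H, ∀ x, x⁻¹ * a x ∈ M := fun a ha x => hTM (subset_closure ⟨x, a, ha, rfl⟩)
  have hMinv : ∀ a ∈ H, ∀ x ∈ M, a x ∈ M := by
    intro a ha x hx
    have h3 := M.mul_mem hx (hMH a ha x)
    simpa using h3
  have hΦinv : ∀ a ∈ H, ∀ x ∈ frattini R, a x ∈ frattini R := by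
    intro a _ x hx
    have hch : (frattini R).Characteristic := inferInstance
    have h2 := Subgroup.characteristic_iff_le_comap.1 hch a
    exact h2 hx
  haveI hnorm : ((frattini R).subgroupOf M).Normal := inferInstance
  -- the quotient `M / Φ` has order at most `p`
  have hrel : (frattini R).relIndex M ≤ p := by
    have h3 := Subgroup.relIndex_mul_index hΦ
    rw [hMidx] at h3
    have h4 : (frattini R).index ≤ p ^ 2 := by
      have hexp : ∀ v : R ⧸ frattini R, v ^ p = 1 := by
        intro v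
        obtain ⟨x, rfl⟩ := QuotientGroup.mk_surjective v
        rw [← QuotientGroup.mk_pow, QuotientGroup.eq_one_iff]
        exact Cfsg.Agent.Lib.Frat.pow_mem_frattini hR x
      have h1 : IsMetacyclic (R ⧸ frattini R) :=
        Cfsg.Agent.Lib.Huppert2.isMetacyclic_of_surjective (QuotientGroup.mk' _)
          (QuotientGroup.mk'_surjective _) hm
      have h2 := Cfsg.Agent.Lib.Huppert2.card_le_of_metacyclic (p := p) h1 hexp
      rwa [Subgroup.index_eq_card]
    rw [← h3, pow_two] at h4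
    exact Nat.le_of_mul_le_mul_right h4 hpp.pos
  have hQp : IsPGroup p (M ⧸ (frattini R).subgroupOf M) := (hR.to_subgroup M).to_quotient _
  have hcyc : IsCyclic (M ⧸ (frattini R).subgroupOf M) := by
    have h3 : Nat.card (M ⧸ (frattini R).subgroupOf M) ≤ p := hrel
    obtain ⟨n, hn⟩ := IsPGroup.iff_card.1 hQp
    rw [hn] at h3
    rcases Nat.eq_zero_or_pos n with rfl | hn0
    · have h4 : Nat.card (M ⧸ (frattini R).subgroupOf M) = 1 := by simpa using hn
      haveI := (Nat.card_eq_one_iff_unique.1 h4).1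
      infer_instance
    · have h5 : n = 1 := by
        by_contra h6
        have h7 : p ^ 2 ≤ p ^ n := Nat.pow_le_pow_right hpp.pos (by omega)
        have h8 : p < p ^ 2 := by
          rw [pow_two]
          exact lt_mul_of_one_lt_left hpp.pos hpp.one_lt
        omega
      subst h5
      haveI : Fact (Nat.card (M ⧸ (frattini R).subgroupOf M)).Prime := ⟨by rw [hn, pow_one]; exact hpp⟩
      exact isCyclic_of_prime_card rfl
  have hone : ∀ β ∈ H, (∀ x ∈ M, x⁻¹ * β x ∈ frattini R) → β = 1 := by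
    intro β hβ h2
    refine eq_one_of_chain hR M hΦ β ?_ (hMH β hβ) h2
    have h3 : orderOf β ∣ Nat.card H := by
      have := orderOf_dvd_natCard (⟨β, hβ⟩ : H)
      rwa [Subgroup.orderOf_mk] at this
    exact Nat.Coprime.coprime_dvd_left h3 hH
  have hrho : ∀ {a : H}, Cfsg.Agent.Lib.FusionSuper.rho H M (frattini R) hMinv hΦinv a = 1 →
      ∀ x ∈ M, x⁻¹ * a.1 x ∈ frattini R :=
    fun {a} h x hx => Cfsg.Agent.Lib.FusionSuper.rho_eq_one H M (frattini R) hMinv hΦinv h x hx
  constructor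
  · refine ⟨⟨fun a b => ?_⟩⟩
    have h1 := Cfsg.Agent.Lib.FusionSuper.rho_comm H M (frattini R) hMinv hΦinv a b
    have h2 : (a * b * a⁻¹ * b⁻¹ : H).1 = 1 := hone _ (a * b * a⁻¹ * b⁻¹).2 (fun x hx => hrho h1 x hx)
    have h3 : a * b * a⁻¹ * b⁻¹ = 1 := Subtype.ext h2
    calc a * b = a * b * a⁻¹ * b⁻¹ * (b * a) := by group
      _ = b * a := by rw [h3, one_mul]
  · intro h hh
    have hNpow : (⟨h, hh⟩ : H) ^ Nat.card H = 1 := pow_card_eq_one'
    have h1 := Cfsg.Agent.Lib.FusionSuper.rho_pow (p := p) H M (frattini R) hMinv hΦinv hQp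
      (⟨h, hh⟩ : H) hH hNpow
    have h2 := hone _ ((⟨h, hh⟩ : H) ^ (p - 1)).2 (fun x hx => hrho h1 x hx)
    simpa using h2

end Cfsg.Agent.Lib.MetaSuperAut
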