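/-
Minus32M79: concrete bit-vector models of the extraspecial groups of order 32.
-/
import Mathlib
import Cfsg.Agent.Lib.ExtraES2

set_option autoImplicit false
open Cfsg

namespace Cfsg.Agent.Lib.Minus32M79

open Cfsg.Agent.Lib.ExtraES Cfsg.Agent.Lib.ExtraES2

/-- Bit vectors `(a₀,a₁,a₂,a₃,c)`, the normal form `x₀^a₀ x₁^a₁ x₂^a₂ x₃^a₃ z^c`. -/
abbrev T := Bool × Bool × Bool × Bool × Bool

def beta (s : Bool) (u v : T) : Bool :=
  match u, v with
  | (a0, a1, a2, a3, _), (b0, b1, b2, b3, _) =>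
    xor (s && a0 && b0) <| xor (a1 && b0) <| xor (a2 && b0) <| xor (a2 && b1) <|
      xor (a3 && b0) <| xor (a3 && b1) (a3 && b2)

def mulT (s : Bool) (u v : T) : T :=
  match u, v with
  | (a0, a1, a2, a3, c), (b0, b1, b2, b3, d) =>
    (xor a0 b0, xor a1 b1, xor a2 b2, xor a3 b3,
      xor (xor c d) (beta s (a0, a1, a2, a3, c) (b0, b1, b2, b3, d)))

def invT (s : Bool) (u : T) : T :=
  match u with
  | (a0, a1, a2, a3, c) => (a0, a1, a2, a3, xor c (beta s (a0, a1, a2, a3, c) (a0, a1, a2, a3, c)))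

def oneT : T := (false, false, false, false, false)

theorem assocT : ∀ (s : Bool) (u v w : T), mulT s (mulT s u v) w = mulT s u (mulT s v w) := by
  decide +kernel

theorem one_mulT : ∀ (s : Bool) (u : T), mulT s oneT u = u := by decide +kernel

theorem inv_mulT : ∀ (s : Bool) (u : T), mulT s (invT s u) u = oneT := by decide +kernel

/-- Extraspecial model; `s = false` is minus type, `s = true` plus type. -/
def Mod (_s : Bool) : Type := T

instance (s : Bool) : DecidableEq (Mod s) := inferInstanceAs (DecidableEq T)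
instance (s : Bool) : Fintype (Mod s) := inferInstanceAs (Fintype T)
instance (s : Bool) : Mul (Mod s) := ⟨mulT s⟩
instance (s : Bool) : One (Mod s) := ⟨oneT⟩
instance (s : Bool) : Inv (Mod s) := ⟨invT s⟩
instance (s : Bool) : Group (Mod s) :=
  Group.ofLeftAxioms (assocT s) (one_mulT s) (inv_mulT s)

def zz (s : Bool) : Mod s := ((false, false, false, false, true) : T)

theorem card_mod (s : Bool) : Nat.card (Mod s) = 2 ^ (2 * 2 + 1) := by
  rw [Nat.card_eq_fintype_card]
  cases s <;> decide +kernel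

theorem central_zz : ∀ (s : Bool) (g : Mod s), g * zz s = zz s * g := by decide +kernel

theorem zz_props : ∀ s : Bool, (zz s) ^ 2 = 1 ∧ zz s ≠ 1 := by decide +kernel

theorem center_mod : ∀ (s : Bool) (g : Mod s), (∀ h : Mod s, h * g = g * h) → g = 1 ∨ g = zz s := by
  decide +kernel

theorem comm_mod : ∀ (s : Bool) (a b : Mod s), a * b * a⁻¹ * b⁻¹ = 1 ∨ a * b * a⁻¹ * b⁻¹ = zz s := by
  decide +kernel

theorem sq_mod : ∀ (s : Bool) (a : Mod s), a ^ 2 = 1 ∨ a ^ 2 = zz s := by
  decide +kernel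

theorem es_mod (s : Bool) : ES 2 (Mod s) (zz s) := by
  haveI : Fact (Nat.Prime 2) := ⟨Nat.prime_two⟩
  refine ⟨central_zz s, orderOf_eq_prime (zz_props s).1 (zz_props s).2, ?_, ?_, ?_⟩
  · intro g hg
    rcases center_mod s g hg with h | h
    · exact ⟨0, by simp [h]⟩
    · exact ⟨1, by simp [h]⟩
  · intro a b
    rcases comm_mod s a b with h | h
    · exact ⟨0, by simp [commutatorElement_def, h]⟩
    · exact ⟨1, by simp [commutatorElement_def, h]⟩
  · intro a
    rcases sq_mod s a with h | h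
    · exact ⟨0, by simp [h]⟩
    · exact ⟨1, by simp [h]⟩

/-- In the minus model, no `E₈`. -/
theorem no_e8 : ∀ u v : Mod false, u * u = 1 → v * v = 1 → u * v = v * u →
    u = 1 ∨ u = zz false ∨ v = 1 ∨ v = zz false ∨ u = v ∨ u = v * zz false := by
  decide +kernel

def uu : Mod true := ((false, true, false, false, false) : T)
def vv : Mod true := ((true, true, true, false, false) : T)

theorem uv_props : uu * uu = 1 ∧ vv * vv = 1 ∧ uu * vv = vv * uu ∧ uu ≠ 1 ∧ uu ≠ zz true ∧ vv ≠ 1 ∧
    vv ≠ zz true ∧ uu ≠ vv ∧ uu ≠ vv * zz true := by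
  decide +kernel

theorem not_iso_models (φ : Mod true ≃* Mod false) : False := by
  obtain ⟨h1, h2, h3, h4, h5, h6, h7, h8, h9⟩ := uv_props
  have hz : φ (zz true) = zz false := iso_maps_z (es_mod true) (es_mod false) φ
  rcases no_e8 (φ uu) (φ vv) (by rw [← map_mul, h1, map_one]) (by rw [← map_mul, h2, map_one])
    (by rw [← map_mul, ← map_mul, h3]) with h | h | h | h | h | h
  · exact h4 (φ.injective (by rw [h, map_one]))
  · exact h5 (φ.injective (by rw [h, hz]))
  · exact h6 (φ.injective (by rw [h, map_one]))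
  · exact h7 (φ.injective (by rw [h, hz]))
  · exact h8 (φ.injective h)
  · exact h9 (φ.injective (by rw [h, map_mul, hz]))

/-- The `E₈` of the plus model. -/
def em8 : Subgroup (Mod true) where
  carrier := {w | (w : T).2.2.2.1 = false ∧ (w : T).1 = (w : T).2.2.1}
  mul_mem' := by
    have : ∀ a b : Mod true, ((a : T).2.2.2.1 = false ∧ (a : T).1 = (a : T).2.2.1) →
        ((b : T).2.2.2.1 = false ∧ (b : T).1 = (b : T).2.2.1) →
        (((a * b : Mod true) : T).2.2.2.1 = false ∧ ((a * b : Mod true) : T).1 = ((a * b : Mod true) : T).2.2.1) := by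
      decide +kernel
    intro a b ha hb
    exact this a b ha hb
  one_mem' := by
    show (((1 : Mod true) : T).2.2.2.1 = false ∧ ((1 : Mod true) : T).1 = ((1 : Mod true) : T).2.2.1)
    decide +kernel
  inv_mem' := by
    have : ∀ a : Mod true, ((a : T).2.2.2.1 = false ∧ (a : T).1 = (a : T).2.2.1) →
        (((a⁻¹ : Mod true) : T).2.2.2.1 = false ∧ ((a⁻¹ : Mod true) : T).1 = ((a⁻¹ : Mod true) : T).2.2.1) := by
      decide +kernel
    intro a ha
    exact this a ha

theorem em8_comm : ∀ a b : Mod true, ((a : T).2.2.2.1 = false ∧ (a : T).1 = (a : T).2.2.1) →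
    ((b : T).2.2.2.1 = false ∧ (b : T).1 = (b : T).2.2.1) → a * b = b * a := by
  decide +kernel

theorem em8_sq : ∀ a : Mod true, ((a : T).2.2.2.1 = false ∧ (a : T).1 = (a : T).2.2.1) → a ^ 2 = 1 := by
  decide +kernel

theorem card_em8 : Nat.card em8 = 8 := by
  have h := Nat.subtype_card (p := fun w => w ∈ em8)
    (Finset.univ.filter (fun w : Mod true => (w : T).2.2.2.1 = false ∧ (w : T).1 = (w : T).2.2.1))
    (by intro x; simp only [Finset.mem_filter, Finset.mem_univ, true_and]; exact Iff.rfl)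
  have h' : Nat.card em8 = _ := h
  rw [h']
  decide +kernel

/-- The minus model is forced. -/
theorem exists_iso {P : Type*} [Group P] [Finite P]
    (hex : Cfsg.IsExtraspecial 2 P) (h32 : Nat.card P = 32)
    (hminus : ∀ A : Subgroup P, Cfsg.IsElementaryAbelian 2 A → Nat.card ↥A ≤ 4) :
    Nonempty (P ≃* Mod false) := by
  haveI : Fact (Nat.Prime 2) := ⟨Nat.prime_two⟩
  obtain ⟨z, hz⟩ := exists_ES hex
  rcases two_classes 2 P (Mod false) (Mod true) z (zz false) (zz true) hz (es_mod false) (es_mod true)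
    (by rw [h32]; norm_num) (card_mod _) (card_mod _) with h | h | h
  · exact h
  · obtain ⟨h⟩ := h
    exact (not_iso_models h.symm).elim
  · exfalso
    obtain ⟨h⟩ := h
    have h1 := hminus (em8.map h.symm.toMonoidHom) ?_
    · have h2 : Nat.card (em8.map h.symm.toMonoidHom) = Nat.card em8 :=
        Nat.card_congr (Subgroup.equivMapOfInjective em8 _ h.symm.injective).toEquiv.symm
      rw [h2, card_em8] at h1
      omega
    · refine ⟨⟨⟨?_⟩⟩, ?_⟩
      · rintro ⟨a, a', ha, rfl⟩ ⟨b, b', hb, rfl⟩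
        apply Subtype.ext
        show h.symm.toMonoidHom a' * h.symm.toMonoidHom b' = h.symm.toMonoidHom b' * h.symm.toMonoidHom a'
        rw [← map_mul, ← map_mul, em8_comm a' b' ha hb]
      · rintro a ⟨a', ha, rfl⟩
        show h.symm.toMonoidHom a' ^ 2 = 1
        rw [← map_pow, em8_sq a' ha, map_one]

end Cfsg.Agent.Lib.Minus32M79
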