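import Mathlib
import Cfsg.Agent.Lib.N22Base
import Cfsg.Agent.Lib.SmallGroups3

set_option autoImplicit false
open scoped Pointwise

/-! Sylow number 22 : the point stabilizers and the element of order 11. -/

namespace Cfsg.Agent.Lib.N22

instance factPrimeEleven : Fact (Nat.Prime 11) := ⟨by norm_num⟩
instance factPrimeFive : Fact (Nat.Prime 5) := ⟨by norm_num⟩

section Core

variable {S : Type*} [Group S] [Finite S]

/-- The action on the Sylow subgroups is transitive, hence nontrivial elements move something. -/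
theorem faithful_of_simple [IsSimpleGroup S] (h22 : Nat.card (Sylow 3 S) = 22) (g : S)
    (hg : ∀ x : Sylow 3 S, g • x = x) : g = 1 := by
  let φ : S →* Equiv.Perm (Sylow 3 S) := MulAction.toPermHom S (Sylow 3 S)
  have hker : φ.ker ≠ ⊤ := by
    intro htop
    obtain ⟨R⟩ : Nonempty (Sylow 3 S) := inferInstance
    have hall : ∀ x : Sylow 3 S, x = R := by
      intro x
      obtain ⟨c, rfl⟩ := MulAction.exists_smul_eq S R x
      have : c ∈ φ.ker := by rw [htop]; trivial
      have h1 : φ c = 1 := this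
      have h2 : φ c R = R := by rw [h1]; rfl
      exact h2
    have hss : Subsingleton (Sylow 3 S) := ⟨fun a b => (hall a).trans (hall b).symm⟩
    have : Nat.card (Sylow 3 S) = 1 := Nat.card_of_subsingleton R
    omega
  have hbot : φ.ker = ⊥ := by
    rcases (inferInstance : φ.ker.Normal).eq_bot_or_eq_top with h | h
    · exact h
    · exact absurd h hker
  have hmem : g ∈ φ.ker := by
    show φ g = 1
    ext x : 1
    exact hg x
  rw [hbot] at hmem
  exact Subgroup.mem_bot.mp hmem

theorem not_comm (h22 : Nat.card (Sylow 3 S) = 22) : ¬ IsMulCommutative S := by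
  intro hc
  obtain ⟨R⟩ : Nonempty (Sylow 3 S) := inferInstance
  have hall : ∀ x : Sylow 3 S, x = R := by
    intro x
    obtain ⟨c, rfl⟩ := MulAction.exists_smul_eq S R x
    apply Sylow.smul_eq_of_normal
  have hss : Subsingleton (Sylow 3 S) := ⟨fun a b => (hall a).trans (hall b).symm⟩
  have : Nat.card (Sylow 3 S) = 1 := Nat.card_of_subsingleton R
  omega

theorem card_eq_mul (h22 : Nat.card (Sylow 3 S) = 22) (P : Sylow 3 S) :
    Nat.card S = 22 * Nat.card (Subgroup.normalizer ((P : Subgroup S) : Set S)) := by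
  have h1 := Sylow.card_eq_index_normalizer P
  rw [h22] at h1
  rw [h1, mul_comm]
  exact (Subgroup.card_mul_index _).symm

/-- The set of Sylow subgroups at relative index `3`. -/
def U (P : Sylow 3 S) : Set (Sylow 3 S) := {R | (R : Subgroup S).relIndex P = 3}

/-- The set of Sylow subgroups at relative index `9`. -/
def Z (P : Sylow 3 S) : Set (Sylow 3 S) := {R | (R : Subgroup S).relIndex P = 9}

theorem relIndex_self (P : Sylow 3 S) : (P : Subgroup S).relIndex P = 1 :=
  Subgroup.relIndex_self _

theorem relIndex_cases (h22 : Nat.card (Sylow 3 S) = 22) (P R : Sylow 3 S) (hne : R ≠ P) :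
    (R : Subgroup S).relIndex P = 3 ∨ (R : Subgroup S).relIndex P = 9 := by
  have h1 : (R : Subgroup S).relIndex P ≤ 21 := by
    rw [← card_orbit_eq]
    have hs : MulAction.orbit (P : Subgroup S) R ⊆ ({P} : Set (Sylow 3 S))ᶜ := by
      intro y hy
      exact orbit_ne P R hne hy
    have := Set.ncard_le_ncard hs (Set.toFinite _)
    rw [Set.ncard_compl, Set.ncard_singleton, h22] at this
    omega
  obtain ⟨k, hk⟩ := IsPGroup.iff_card.mp P.isPGroup'
  have h2 : (R : Subgroup S).relIndex P ∣ 3 ^ k := by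
    rw [← hk]; exact Subgroup.relIndex_dvd_card _ _
  obtain ⟨b, -, hb⟩ := (Nat.dvd_prime_pow (by norm_num : Nat.Prime 3)).mp h2
  have hb0 : b ≠ 0 := by
    rintro rfl
    rw [pow_zero] at hb
    have h3 : (P : Subgroup S) ≤ R := Subgroup.relIndex_eq_one.mp hb
    exact hne ((le_iff_eq P R).mp h3).symm
  have hb3 : b < 3 := by
    by_contra hb2
    have h4 : 3 ≤ b := by omega
    have h5 : 3 ^ 3 ≤ 3 ^ b := Nat.pow_le_pow_right (by norm_num) h4
    rw [hb] at h1
    omega
  interval_cases b
  · exact absurd rfl hb0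
  · left; rw [hb]; norm_num
  · right; rw [hb]; norm_num

theorem relIndex_smul_of_mem (P R : Sylow 3 S) {a : S}
    (ha : a ∈ Subgroup.normalizer ((P : Subgroup S) : Set S)) :
    ((a • R : Sylow 3 S) : Subgroup S).relIndex P = (R : Subgroup S).relIndex P := by
  have h1 := relIndex_smul a P R
  rwa [smul_eq_of_mem_normalizer P ha] at h1

theorem relIndex_smul_of_mem' (P R : Sylow 3 S) {a : S} (ha : a ∈ (P : Subgroup S)) :
    ((a • R : Sylow 3 S) : Subgroup S).relIndex P = (R : Subgroup S).relIndex P :=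
  relIndex_smul_of_mem P R (Subgroup.le_normalizer ha)

theorem ncard_U_add_Z (h22 : Nat.card (Sylow 3 S) = 22) (P : Sylow 3 S) :
    (U P).ncard + (Z P).ncard = 21 := by
  have hd : Disjoint (U P) (Z P) := by
    rw [Set.disjoint_left]
    intro R h1 h2
    have e1 : (R : Subgroup S).relIndex P = 3 := h1
    have e2 : (R : Subgroup S).relIndex P = 9 := h2
    omega
  rw [← Set.ncard_union_eq hd (Set.toFinite _) (Set.toFinite _)]
  have he : U P ∪ Z P = ({P} : Set (Sylow 3 S))ᶜ := by
    ext R
    simp only [Set.mem_union, Set.mem_compl_iff, Set.mem_singleton_iff]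
    constructor
    · rintro (h | h) rfl
      · have e1 : (R : Subgroup S).relIndex R = 3 := h
        rw [relIndex_self] at e1; omega
      · have e1 : (R : Subgroup S).relIndex R = 9 := h
        rw [relIndex_self] at e1; omega
    · intro h
      exact relIndex_cases h22 P R h
  rw [he, Set.ncard_compl, Set.ncard_singleton, h22]

theorem nine_dvd_Z (P : Sylow 3 S) : 9 ∣ (Z P).ncard := by
  apply dvd_ncard_of_invariant (G := (P : Subgroup S))
  · intro g x hx
    show ((g : S) • x : Sylow 3 S) ∈ Z P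
    have e : (x : Subgroup S).relIndex P = 9 := hx
    show (((g : S) • x : Sylow 3 S) : Subgroup S).relIndex P = 9
    rw [relIndex_smul_of_mem' P x g.2, e]
  · intro x hx
    have e : (x : Subgroup S).relIndex P = 9 := hx
    rw [card_orbit_eq, e]

theorem ncard_U_cases (h22 : Nat.card (Sylow 3 S) = 22) (P : Sylow 3 S) :
    (U P).ncard = 3 ∨ (U P).ncard = 12 ∨ (U P).ncard = 21 := by
  have h1 := ncard_U_add_Z h22 P
  obtain ⟨k, hk⟩ := nine_dvd_Z P
  have : k ≤ 2 := by omega
  interval_cases k <;> omega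

/-- An element of prime order `q` fixes pointwise an invariant set with fewer than `q` points. -/
theorem fix_of_invariant {G X : Type*} [Group G] [MulAction G X] [Finite X] (T : Set X) {g : G}
    {q : ℕ} (hq : q.Prime) (hgq : g ^ q = 1) (hinv : ∀ y ∈ T, g • y ∈ T) (hlt : T.ncard < q)
    {y : X} (hy : y ∈ T) : g • y = y := by
  let f : T → T := fun y => ⟨g • y.1, hinv y.1 y.2⟩
  have hit : ∀ n : ℕ, ∀ y, (f^[n] y).1 = g ^ n • y.1 := by
    intro n
    induction n with
    | zero => intro y; simp
    | succ n ih =>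
      intro y
      rw [Function.iterate_succ_apply', pow_succ', mul_smul]
      show g • (f^[n] y).1 = _
      rw [ih]
  have hid : f^[q] = id := by
    funext y
    apply Subtype.ext
    rw [hit, hgq, one_smul]
    rfl
  have hcard : Nat.card T < q := by
    rw [Nat.card_coe_set_eq]
    exact hlt
  have := eq_of_iterate hq f hid hcard ⟨y, hy⟩
  exact congrArg Subtype.val this

/-- Fixed points of an element normalizing `P` spread along small `P`-orbits. -/
theorem fix_orbit (P R : Sylow 3 S) {g : S} {q : ℕ} (hq : q.Prime)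
    (hg : g ∈ Subgroup.normalizer ((P : Subgroup S) : Set S)) (hgq : g ^ q = 1)
    (hR : g • R = R) (hlt : (R : Subgroup S).relIndex P < q) {a : S}
    (ha : a ∈ (P : Subgroup S)) : g • (a • R) = a • R := by
  have hinv : ∀ y ∈ MulAction.orbit (P : Subgroup S) R, g • y ∈ MulAction.orbit (P : Subgroup S) R := by
    rintro _ ⟨b, rfl⟩
    have h1 : g * (b : S) * g⁻¹ ∈ (P : Subgroup S) := (Subgroup.mem_normalizer_iff.mp hg _).mp b.2
    refine ⟨⟨_, h1⟩, ?_⟩
    show (g * (b : S) * g⁻¹) • R = g • ((b : S) • R)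
    have h2 : g⁻¹ • R = R := by rw [inv_smul_eq_iff, hR]
    rw [mul_smul, mul_smul, h2]
  let f : MulAction.orbit (P : Subgroup S) R → MulAction.orbit (P : Subgroup S) R :=
    fun y => ⟨g • y.1, hinv y.1 y.2⟩
  have hit : ∀ n : ℕ, ∀ y, (f^[n] y).1 = g ^ n • y.1 := by
    intro n
    induction n with
    | zero => intro y; simp
    | succ n ih =>
      intro y
      rw [Function.iterate_succ_apply', pow_succ', mul_smul]
      show g • (f^[n] y).1 = _
      rw [ih]
  have hid : f^[q] = id := by
    funext y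
    apply Subtype.ext
    rw [hit, hgq, one_smul]
    rfl
  have hcard : Nat.card (MulAction.orbit (P : Subgroup S) R) < q := by
    rw [Nat.card_coe_set_eq, card_orbit_eq]
    exact hlt
  have := eq_of_iterate hq f hid hcard ⟨a • R, ⟨⟨a, ha⟩, rfl⟩⟩
  exact congrArg Subtype.val this

/-- An element of order `11` fixes no Sylow `3`-subgroup. -/
theorem no_fix [IsSimpleGroup S] (h22 : Nat.card (Sylow 3 S) = 22) {u : S} (hu : orderOf u = 11)
    (P : Sylow 3 S) (hP : u • P = P) : False := by
  classical
  have hN : u ∈ Subgroup.normalizer ((P : Subgroup S) : Set S) :=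
    (Sylow.smul_eq_iff_mem_normalizer).mp hP
  have hu11 : u ^ 11 = 1 := by rw [← hu]; exact pow_orderOf_eq_one u
  set F : Set (Sylow 3 S) := {x | u • x = x} with hF
  have hlt : ∀ R : Sylow 3 S, (R : Subgroup S).relIndex P < 11 := by
    intro R
    by_cases hne : R = P
    · rw [hne, relIndex_self]; norm_num
    · rcases relIndex_cases h22 P R hne with h | h <;> rw [h] <;> norm_num
  have hFinv : ∀ a : (P : Subgroup S), ∀ y ∈ F \ {P}, a • y ∈ F \ {P} := by
    rintro a y ⟨hy, hyP⟩
    refine ⟨?_, ?_⟩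
    · exact fix_orbit P y (by norm_num : Nat.Prime 11) hN hu11 hy (hlt y) a.2
    · exact orbit_ne P y hyP ⟨a, rfl⟩
  have h3 : 3 ∣ (F \ {P}).ncard := by
    apply dvd_ncard_of_invariant (G := (P : Subgroup S)) 3 _ hFinv
    intro x hx
    rw [card_orbit_eq]
    rcases relIndex_cases h22 P x hx.2 with h | h <;> rw [h] <;> norm_num
  have hPF : P ∈ F := hP
  have h4 : (F \ {P}).ncard + 1 = F.ncard := by
    have := Set.ncard_sdiff_add_ncard_of_subset (s := {P}) (t := F)
      (Set.singleton_subset_iff.mpr hPF) (Set.toFinite _)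
    rwa [Set.ncard_singleton] at this
  have h5 := ncard_modEq_fixed (X := Sylow 3 S) (p := 11) u hu11 Set.univ (fun _ _ => Set.mem_univ _)
  have h6 : ({x ∈ (Set.univ : Set (Sylow 3 S)) | u • x = x} : Set _) = F := by
    ext x; simp [hF]
  rw [h6, Set.ncard_univ, h22] at h5
  have h7 : F.ncard ≤ 22 := by
    have := Set.ncard_le_ncard (Set.subset_univ F) (Set.toFinite _)
    rwa [Set.ncard_univ, h22] at this
  have h8 : F.ncard = 22 := by
    unfold Nat.ModEq at h5
    obtain ⟨k, hk⟩ := h3
    omega
  have h9 : F = Set.univ := by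
    rw [Set.eq_univ_iff_ncard, h22]
    exact h8
  have h10 : u = 1 := faithful_of_simple h22 u (fun x => by
    have : x ∈ F := by rw [h9]; trivial
    exact this)
  rw [h10, orderOf_one] at hu
  omega

theorem eleven_not_dvd [IsSimpleGroup S] (h22 : Nat.card (Sylow 3 S) = 22) (P : Sylow 3 S) :
    ¬ 11 ∣ Nat.card (Subgroup.normalizer ((P : Subgroup S) : Set S)) := by
  intro h
  obtain ⟨x, hx⟩ := exists_prime_orderOf_dvd_card' 11 h
  have hu : orderOf (x : S) = 11 := by rwa [Subgroup.orderOf_coe]
  exact no_fix h22 hu P (smul_eq_of_mem_normalizer P x.2)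

theorem free_of_order [IsSimpleGroup S] (h22 : Nat.card (Sylow 3 S) = 22) {u : S}
    (hu : orderOf u = 11) (y : Sylow 3 S) {n : ℕ} (h : u ^ n • y = y) : 11 ∣ n := by
  by_contra hn
  have hc : Nat.Coprime n (orderOf u) := by
    rw [hu, Nat.coprime_comm, Nat.Prime.coprime_iff_not_dvd (by norm_num)]
    exact hn
  have h1 : orderOf (u ^ n) = orderOf u := Nat.Coprime.orderOf_pow hc.symm
  exact no_fix h22 (h1.trans hu) y h

/-- `y'` lies in the `⟨u⟩`-orbit of `y`. -/
def Rel {X : Type*} [MulAction S X] (u : S) (y y' : X) : Prop := ∃ n : ℕ, u ^ n • y = y'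

theorem two_orbits [IsSimpleGroup S] (h22 : Nat.card (Sylow 3 S) = 22) {u : S}
    (hu : orderOf u = 11) (y₁ y₂ y₃ : Sylow 3 S) :
    Rel u y₁ y₂ ∨ Rel u y₁ y₃ ∨ Rel u y₂ y₃ := by
  have hu11 : u ^ 11 = 1 := by rw [← hu]; exact pow_orderOf_eq_one u
  by_contra hcon
  push Not at hcon
  obtain ⟨h12, h13, h23⟩ := hcon
  -- a symmetric form of the relation
  have key : ∀ {a b : Sylow 3 S} {n m : ℕ}, u ^ n • a = u ^ m • b → Rel u a b := by
    intro a b n m h
    refine ⟨10 * m + n, ?_⟩
    rw [pow_add, mul_smul, h, smul_smul, ← pow_add]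
    have : 10 * m + m = 11 * m := by ring
    rw [this, pow_mul, hu11, one_pow, one_smul]
  have sym : ∀ {a b : Sylow 3 S}, Rel u a b → Rel u b a := by
    rintro a _ ⟨n, rfl⟩
    exact key (n := 0) (m := n) (by simp)
  have h21 : ¬ Rel u y₂ y₁ := fun h => h12 (sym h)
  have h31 : ¬ Rel u y₃ y₁ := fun h => h13 (sym h)
  have h32 : ¬ Rel u y₃ y₂ := fun h => h23 (sym h)
  let y : Fin 3 → Sylow 3 S := ![y₁, y₂, y₃]
  let f : Fin 3 × Fin 11 → Sylow 3 S := fun x => u ^ (x.2 : ℕ) • y x.1
  have hrel : ∀ i j : Fin 3, i ≠ j → ¬ Rel u (y i) (y j) := by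
    intro i j hij
    fin_cases i <;> fin_cases j <;> first
      | exact absurd rfl hij
      | exact h12
      | exact h13
      | exact h23
      | exact h21
      | exact h31
      | exact h32
  have hinj : Function.Injective f := by
    rintro ⟨i, n⟩ ⟨j, m⟩ h
    have h' : u ^ (n : ℕ) • y i = u ^ (m : ℕ) • y j := h
    have hij : i = j := by
      by_contra hij
      exact hrel i j hij (key h')
    subst hij
    have hnm : (n : ℕ) = m := by
      rcases le_total (n : ℕ) (m : ℕ) with hle | hle
      · obtain ⟨d, hd⟩ := Nat.exists_eq_add_of_le hle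
        rw [hd, pow_add, mul_smul] at h'
        have h2 := smul_left_cancel _ h'
        have h3 := free_of_order h22 hu (y i) h2.symm
        have := n.2
        have := m.2
        omega
      · obtain ⟨d, hd⟩ := Nat.exists_eq_add_of_le hle
        rw [hd, pow_add, mul_smul] at h'
        have h2 := smul_left_cancel _ h'
        have h3 := free_of_order h22 hu (y i) h2
        have := n.2
        have := m.2
        omega
    rw [Fin.ext hnm]
  have h1 := Nat.card_le_card_of_injective f hinj
  rw [h22] at h1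
  simp at h1

theorem fix_unique {X : Type*} [MulAction S X] {u g : S} (hu : orderOf u = 11) {k : ℕ}
    (hk : k % 11 ≠ 1) (hg : g * u * g⁻¹ = u ^ k) {y : X} (hfree : ∀ n : ℕ, u ^ n • y = y → 11 ∣ n)
    (hy : g • y = y) {a : ℕ} (hya : g • (u ^ a • y) = u ^ a • y) : u ^ a • y = y := by
  have hu11 : u ^ 11 = 1 := by rw [← hu]; exact pow_orderOf_eq_one u
  have hk0 : k ≠ 0 := by
    rintro rfl
    rw [pow_zero] at hg
    have : u = 1 := by
      have h2 : g⁻¹ * (g * u * g⁻¹) * g = u := by group
      rw [hg] at h2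
      simpa using h2.symm
    rw [this, orderOf_one] at hu
    omega
  have h1 : g • (u ^ a • y) = u ^ (k * a) • y := by
    have h2 : g * u ^ a = u ^ (k * a) * g := by
      rw [pow_mul, ← hg, conj_pow]
      group
    rw [smul_smul, h2, mul_smul, hy]
  rw [h1] at hya
  obtain ⟨j, rfl⟩ : ∃ j, k = j + 1 := ⟨k - 1, by omega⟩
  have h3 : u ^ ((j + 1) * a) = u ^ a * u ^ (j * a) := by
    rw [← pow_add]; congr 1; ring
  rw [h3, mul_smul] at hya
  have h4 := smul_left_cancel _ hya
  have h5 := hfree _ h4
  have h6 : 11 ∣ a := by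
    rcases (Nat.Prime.dvd_mul (by norm_num : Nat.Prime 11)).mp h5 with h | h
    · exfalso
      omega
    · exact h
  obtain ⟨c, rfl⟩ := h6
  rw [pow_mul, hu11, one_pow, one_smul]

theorem ncard_fix_le_two [IsSimpleGroup S] (h22 : Nat.card (Sylow 3 S) = 22) {u g : S}
    (hu : orderOf u = 11) {k : ℕ} (hk : k % 11 ≠ 1) (hg : g * u * g⁻¹ = u ^ k) :
    ({x | g • x = x} : Set (Sylow 3 S)).ncard ≤ 2 := by
  by_contra hcon
  obtain ⟨a, b, c, ha, hb, hc, hab, hac, hbc⟩ :=
    (Set.two_lt_ncard_iff (Set.toFinite _)).mp (not_le.mp hcon)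
  have key : ∀ {x y : Sylow 3 S}, g • x = x → g • y = y → Rel u x y → x = y := by
    rintro x _ hx hy ⟨n, rfl⟩
    exact (fix_unique hu hk hg (fun n h => free_of_order h22 hu x h) hx hy).symm
  rcases two_orbits h22 hu a b c with h | h | h
  · exact hab (key ha hb h)
  · exact hac (key ha hc h)
  · exact hbc (key hb hc h)

theorem eq_of_rel_of_comm {X : Type*} [MulAction S X] {u w : S} (hu : orderOf u = 11)
    (hc : Commute w u) {n : ℕ} (hn : w ^ n = 1) (hcop : ¬ 11 ∣ n) {y : X}
    (hfree : ∀ n : ℕ, u ^ n • y = y → 11 ∣ n) (h : Rel u y (w • y)) : w • y = y := by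
  have hu11 : u ^ 11 = 1 := by rw [← hu]; exact pow_orderOf_eq_one u
  obtain ⟨a, ha⟩ := h
  have hit : ∀ m : ℕ, w ^ m • y = u ^ (a * m) • y := by
    intro m
    induction m with
    | zero => simp
    | succ m ih =>
      have hcm : w ^ m * u ^ a = u ^ a * w ^ m := ((hc.pow_right a).pow_left m).eq
      rw [pow_succ, mul_smul, ← ha, smul_smul, hcm, mul_smul, ih, smul_smul, ← pow_add]
      congr 2
      ring
  have h1 := hit n
  rw [hn, one_smul] at h1
  have h2 := hfree _ h1.symm
  have h3 : 11 ∣ a := by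
    rcases (Nat.Prime.dvd_mul (by norm_num : Nat.Prime 11)).mp h2 with h | h
    · exact h
    · exact absurd h hcop
  obtain ⟨c, rfl⟩ := h3
  rw [← ha, pow_mul, hu11, one_pow, one_smul]

theorem centralizer_prime [IsSimpleGroup S] (h22 : Nat.card (Sylow 3 S) = 22) {u z : S}
    (hu : orderOf u = 11) (hc : Commute z u) {r : ℕ} (hr : r.Prime) (hz : orderOf z = r)
    (hne : r ≠ 11) : False := by
  have hzr : z ^ r = 1 := by rw [← hz]; exact pow_orderOf_eq_one z
  have hcop : ¬ 11 ∣ r := by
    intro h
    rcases (Nat.dvd_prime hr).mp h with h | h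
    · omega
    · omega
  have hfree : ∀ y : Sylow 3 S, ∀ n : ℕ, u ^ n • y = y → 11 ∣ n :=
    fun y n h => free_of_order h22 hu y h
  have hall : ∀ y : Sylow 3 S, z • y = y := by
    by_cases h2 : r = 2
    · subst h2
      have h4 := Cfsg.Agent.Lib.SmallGroups3.card_modEq_fixedBy_four (not_comm h22)
        (X := Sylow 3 S) z hzr
      rw [h22] at h4
      have hne0 : Nat.card (MulAction.fixedBy (Sylow 3 S) z) ≠ 0 := by
        intro h0
        rw [h0] at h4
        unfold Nat.ModEq at h4
        omega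
      have hpos : 0 < Nat.card (MulAction.fixedBy (Sylow 3 S) z) := Nat.pos_of_ne_zero hne0
      obtain ⟨⟨y₀, hy₀⟩⟩ := (Nat.card_pos_iff.mp hpos).1
      have hy₀' : z • y₀ = y₀ := hy₀
      intro y
      have hzz : z • z • y = y := by rw [smul_smul, ← pow_two, hzr, one_smul]
      rcases two_orbits h22 hu y₀ y (z • y) with h | h | h
      · obtain ⟨n, rfl⟩ := h
        rw [smul_smul, (hc.pow_right n).eq, mul_smul, hy₀']
      · obtain ⟨n, hn⟩ := h
        have : y = u ^ n • y₀ := by
          rw [← hzz, ← hn, smul_smul, (hc.pow_right n).eq, mul_smul, hy₀']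
        rw [← hn, ← this]
      · exact eq_of_rel_of_comm hu hc hzr hcop (hfree y) h
    · have hodd : r % 2 = 1 := by
        rcases hr.eq_two_or_odd with h | h
        · exact absurd h h2
        · exact h
      intro y
      have hz2 : (z ^ 2) ^ r = 1 := by rw [← pow_mul, mul_comm, pow_mul, hzr, one_pow]
      rcases two_orbits h22 hu y (z • y) (z • z • y) with h | h | h
      · exact eq_of_rel_of_comm hu hc hzr hcop (hfree y) h
      · have h3 : z ^ 2 • y = y := by
          apply eq_of_rel_of_comm hu (hc.pow_left 2) hz2 hcop (hfree y)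
          rw [pow_two, mul_smul]
          exact h
        have h4 : ∀ m : ℕ, z ^ (2 * m) • y = y := by
          intro m
          induction m with
          | zero => simp
          | succ m ih =>
            rw [Nat.mul_succ, pow_add, mul_smul, h3, ih]
        have h5 := h4 ((r + 1) / 2)
        have h6 : 2 * ((r + 1) / 2) = r + 1 := by omega
        rw [h6, pow_succ, hzr, one_mul] at h5
        exact h5
      · have h3 := eq_of_rel_of_comm hu hc hzr hcop (hfree (z • y)) h
        exact smul_left_cancel _ h3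
  have h1 := faithful_of_simple h22 z hall
  rw [h1, orderOf_one] at hz
  rw [← hz] at hr
  exact Nat.not_prime_one hr

theorem exists_order_eleven [IsSimpleGroup S] (h22 : Nat.card (Sylow 3 S) = 22) :
    ∃ u : S, orderOf u = 11 := by
  obtain ⟨P⟩ : Nonempty (Sylow 3 S) := inferInstance
  apply exists_prime_orderOf_dvd_card'
  rw [card_eq_mul h22 P]
  exact Dvd.dvd.mul_right (by norm_num) _

section ElevenData

variable [IsSimpleGroup S] (h22 : Nat.card (Sylow 3 S) = 22) {u : S} (hu : orderOf u = 11)

include h22 hu in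
theorem card_zpowers_eleven : Nat.card (Subgroup.zpowers u) = 11 := by
  rw [Nat.card_zpowers, hu]

include h22 hu in
theorem not_dvd_index_zpowers : ¬ 11 ∣ (Subgroup.zpowers u).index := by
  intro hd
  obtain ⟨P⟩ : Nonempty (Sylow 3 S) := inferInstance
  have h1 := Subgroup.card_mul_index (Subgroup.zpowers u)
  rw [card_zpowers_eleven h22 hu, card_eq_mul h22 P] at h1
  have h2 : 11 * (Subgroup.zpowers u).index = 11 * (2 * Nat.card (Subgroup.normalizer ((P : Subgroup S) : Set S))) := by
    rw [h1]; ring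
  have h3 := Nat.eq_of_mul_eq_mul_left (by norm_num) h2
  rw [h3] at hd
  rcases (Nat.Prime.dvd_mul (by norm_num : Nat.Prime 11)).mp hd with h | h
  · omega
  · exact eleven_not_dvd h22 P h

/-- The cyclic subgroup generated by `u` as a Sylow subgroup. -/
noncomputable def sylowEleven : Sylow 11 S :=
  IsPGroup.toSylow (P := Subgroup.zpowers u)
    (IsPGroup.of_card (n := 1) (by rw [card_zpowers_eleven h22 hu, pow_one]))
    (not_dvd_index_zpowers h22 hu)

theorem coe_sylowEleven : ((sylowEleven h22 hu : Sylow 11 S) : Subgroup S) = Subgroup.zpowers u :=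
  IsPGroup.toSylow_coe _ _

include h22 hu in
theorem centralizer_eq :
    Subgroup.centralizer ((Subgroup.zpowers u : Subgroup S) : Set S) = Subgroup.zpowers u := by
  set C := Subgroup.centralizer ((Subgroup.zpowers u : Subgroup S) : Set S) with hC
  have hle : Subgroup.zpowers u ≤ C := by
    rw [Subgroup.zpowers_le, hC, Subgroup.mem_centralizer_iff]
    rintro _ ⟨n, rfl⟩
    exact (Commute.zpow_left (Commute.refl u) n).eq
  have hcomm : ∀ z ∈ C, Commute z u := by
    intro z hz
    have := Subgroup.mem_centralizer_iff.mp hz u (Subgroup.mem_zpowers u)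
    exact this.symm
  have hprime : ∀ {r : ℕ}, r.Prime → r ∣ Nat.card C → r = 11 := by
    intro r hr hd
    by_contra hne
    haveI : Fact r.Prime := ⟨hr⟩
    obtain ⟨z, hz⟩ := exists_prime_orderOf_dvd_card' r hd
    have hz' : orderOf (z : S) = r := by rwa [Subgroup.orderOf_coe]
    exact centralizer_prime h22 hu (hcomm z z.2) hr hz' hne
  have hcard := Nat.eq_prime_pow_of_unique_prime_dvd (Nat.card_pos (α := C)).ne' hprime
  have hpg : IsPGroup 11 C := IsPGroup.of_card hcard
  have h1 := (sylowEleven h22 hu).is_maximal' hpg (by rw [coe_sylowEleven]; exact hle)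
  rw [coe_sylowEleven] at h1
  exact h1

include h22 hu in
theorem exists_conj_pow {g : S}
    (hg : g ∈ Subgroup.normalizer ((Subgroup.zpowers u : Subgroup S) : Set S))
    (hgc : g ∉ (Subgroup.zpowers u : Subgroup S)) :
    ∃ k : ℕ, g * u * g⁻¹ = u ^ k ∧ k % 11 ≠ 1 := by
  have hu11 : u ^ 11 = 1 := by rw [← hu]; exact pow_orderOf_eq_one u
  have h1 : g * u * g⁻¹ ∈ Subgroup.zpowers u :=
    (Subgroup.mem_normalizer_iff.mp hg u).mp (Subgroup.mem_zpowers u)
  rw [← mem_powers_iff_mem_zpowers] at h1
  obtain ⟨k, hk⟩ := h1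
  refine ⟨k, hk.symm, ?_⟩
  intro hk1
  apply hgc
  rw [← centralizer_eq h22 hu, Subgroup.mem_centralizer_iff]
  rintro _ ⟨n, rfl⟩
  have h2 : u ^ k = u := by
    conv_lhs => rw [← Nat.div_add_mod k 11, hk1, pow_add, pow_mul, hu11, one_pow, one_mul, pow_one]
  have h3 : g * u = u * g := by
    have hk' : u ^ k = g * u * g⁻¹ := hk
    rw [h2] at hk'
    calc g * u = (g * u * g⁻¹) * g := by group
      _ = u * g := by rw [← hk']
  have h4 : Commute g u := h3
  exact ((h4.zpow_right n).eq).symm

include h22 hu in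
/-- An element of order `5` cannot normalize `⟨u⟩`. -/
theorem no_five {w : S} (hw : orderOf w = 5)
    (hwN : w ∈ Subgroup.normalizer ((Subgroup.zpowers u : Subgroup S) : Set S)) : False := by
  classical
  have hw5 : w ^ 5 = 1 := by rw [← hw]; exact pow_orderOf_eq_one w
  have hwc : w ∉ (Subgroup.zpowers u : Subgroup S) := by
    intro h
    have h1 := Subgroup.orderOf_dvd_natCard (Subgroup.zpowers u) h
    rw [card_zpowers_eleven h22 hu, hw] at h1
    omega
  obtain ⟨k, hk, hk1⟩ := exists_conj_pow h22 hu hwN hwc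
  have hle := ncard_fix_le_two h22 hu hk1 hk
  have hmod := ncard_modEq_fixed (X := Sylow 3 S) (p := 5) w hw5 Set.univ (fun _ _ => Set.mem_univ _)
  have h6 : ({x ∈ (Set.univ : Set (Sylow 3 S)) | w • x = x} : Set _) = {x | w • x = x} := by
    ext x; simp
  rw [h6, Set.ncard_univ, h22] at hmod
  set F : Set (Sylow 3 S) := {x | w • x = x} with hF
  have hF2 : F.ncard = 2 := by
    unfold Nat.ModEq at hmod
    omega
  obtain ⟨P, hP⟩ : F.Nonempty := by
    rw [← Set.ncard_pos (Set.toFinite _)]
    omega
  have hP' : w • P = P := hP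
  have hN : w ∈ Subgroup.normalizer ((P : Subgroup S) : Set S) :=
    (Sylow.smul_eq_iff_mem_normalizer).mp hP'
  have hU := ncard_modEq_fixed (X := Sylow 3 S) (p := 5) w hw5 (U P) (by
    intro x hx
    have e : (x : Subgroup S).relIndex P = 3 := hx
    show ((w • x : Sylow 3 S) : Subgroup S).relIndex P = 3
    rw [relIndex_smul_of_mem P x hN, e])
  have hne : ({x ∈ U P | w • x = x} : Set (Sylow 3 S)).Nonempty := by
    rw [← Set.ncard_pos (Set.toFinite _)]
    by_contra h0
    have h0' : ({x ∈ U P | w • x = x} : Set (Sylow 3 S)).ncard = 0 := by omega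
    rw [h0'] at hU
    unfold Nat.ModEq at hU
    rcases ncard_U_cases h22 P with h | h | h <;> rw [h] at hU <;> omega
  obtain ⟨R, hRU, hR⟩ := hne
  have hRe : (R : Subgroup S).relIndex P = 3 := hRU
  have hsub : insert P (MulAction.orbit (P : Subgroup S) R) ⊆ F := by
    rintro x (rfl | ⟨a, rfl⟩)
    · exact hP
    · exact fix_orbit P R (by norm_num : Nat.Prime 5) hN hw5 hR (by rw [hRe]; norm_num) a.2
  have hRne : R ≠ P := by
    rintro rfl
    rw [relIndex_self] at hRe
    omega
  have hc := Set.ncard_le_ncard hsub (Set.toFinite _)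
  rw [Set.ncard_insert_of_notMem (fun h => orbit_ne P R hRne h rfl) (Set.toFinite _),
    card_orbit_eq, hRe, hF2] at hc
  omega

include h22 hu in
theorem card_normalizer_eq :
    Nat.card (Subgroup.normalizer ((Subgroup.zpowers u : Subgroup S) : Set S)) = 22 := by
  set L := Subgroup.zpowers u with hL
  set N := Subgroup.normalizer ((L : Subgroup S) : Set S) with hN
  set C := Subgroup.centralizer ((L : Subgroup S) : Set S) with hC
  have hCL : C = L := centralizer_eq h22 hu
  have hCN : C ≤ N := Subgroup.centralizer_le_normalizer _ 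
  have h1 := Cfsg.Agent.Lib.SylowNum.card_mul_relIndex C N hCN
  rw [hCL, hL, card_zpowers_eleven h22 hu, ← hL, ← hCL] at h1
  have hr10 : C.relIndex N ∣ 10 := by
    have key := Subgroup.card_dvd_of_injective _ (QuotientGroup.kerLift_injective L.normalizerMonoidHom)
    rw [Subgroup.normalizerMonoidHom_ker, ← Subgroup.index, ← Subgroup.relIndex] at key
    haveI : IsCyclic L := by rw [hL]; infer_instance
    rw [IsCyclic.card_mulAut, hL, card_zpowers_eleven h22 hu] at key
    have h10 : Nat.totient 11 = 10 := by decide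
    rwa [h10] at key
  have hr1 : C.relIndex N ≠ 1 := by
    intro h
    rw [Subgroup.relIndex_eq_one] at h
    have hd : 11 ∣ Nat.card S := by
      obtain ⟨P⟩ : Nonempty (Sylow 3 S) := inferInstance
      rw [card_eq_mul h22 P]
      exact Dvd.dvd.mul_right (by norm_num) _
    apply Cfsg.Agent.Lib.SmallGroups2.not_normalizer_le_centralizer (not_comm h22) hd (sylowEleven h22 hu)
    rw [coe_sylowEleven]
    exact h
  have hr5 : ¬ 5 ∣ C.relIndex N := by
    intro h
    have hd : 5 ∣ Nat.card N := by
      rw [← h1]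
      exact Dvd.dvd.mul_left h _
    obtain ⟨w, hw⟩ := exists_prime_orderOf_dvd_card' 5 hd
    exact no_five h22 hu (w := (w : S)) (by rwa [Subgroup.orderOf_coe]) w.2
  have hmem : C.relIndex N ∈ Nat.divisors 10 := Nat.mem_divisors.mpr ⟨hr10, by norm_num⟩
  have hd : Nat.divisors 10 = {1, 2, 5, 10} := by decide
  rw [hd] at hmem
  simp only [Finset.mem_insert, Finset.mem_singleton] at hmem
  have h2 : C.relIndex N = 2 := by
    rcases hmem with h | h | h | h
    · exact absurd h hr1
    · exact h
    · rw [h] at hr5; omega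
    · rw [h] at hr5; omega
  rw [← h1, h2]

include h22 hu in
/-- An involution in the normalizer of `⟨u⟩`. -/
theorem exists_involution :
    ∃ (t : S) (k : ℕ), orderOf t = 2 ∧ t * u * t⁻¹ = u ^ k ∧ k % 11 ≠ 1 ∧
      t ∈ Subgroup.normalizer ((Subgroup.zpowers u : Subgroup S) : Set S) := by
  have hd : 2 ∣ Nat.card (Subgroup.normalizer ((Subgroup.zpowers u : Subgroup S) : Set S)) := by
    rw [card_normalizer_eq h22 hu]; norm_num
  haveI : Fact (Nat.Prime 2) := ⟨Nat.prime_two⟩
  obtain ⟨t, ht⟩ := exists_prime_orderOf_dvd_card' 2 hd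
  have ht' : orderOf (t : S) = 2 := by rwa [Subgroup.orderOf_coe]
  have htc : (t : S) ∉ (Subgroup.zpowers u : Subgroup S) := by
    intro h
    have h1 := Subgroup.orderOf_dvd_natCard (Subgroup.zpowers u) h
    rw [card_zpowers_eleven h22 hu, ht'] at h1
    omega
  obtain ⟨k, hk, hk1⟩ := exists_conj_pow h22 hu t.2 htc
  exact ⟨t, k, ht', hk, hk1, t.2⟩

include h22 hu in
/-- The order of a point stabilizer is the number of Sylow `11`-subgroups. -/
theorem card_normalizer_eq_sylow (P : Sylow 3 S) :
    Nat.card (Subgroup.normalizer ((P : Subgroup S) : Set S)) = Nat.card (Sylow 11 S) := by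
  have h1 := Sylow.card_eq_index_normalizer (sylowEleven h22 hu)
  have e : ((sylowEleven h22 hu : Sylow 11 S) : Set S) = ((Subgroup.zpowers u : Subgroup S) : Set S) := by
    rw [← coe_sylowEleven h22 hu]; rfl
  rw [e] at h1
  have h2 := Subgroup.card_mul_index (Subgroup.normalizer ((Subgroup.zpowers u : Subgroup S) : Set S))
  rw [card_normalizer_eq h22 hu, ← h1, card_eq_mul h22 P] at h2
  omega

include h22 hu in
theorem card_normalizer_mod (P : Sylow 3 S) :
    Nat.card (Subgroup.normalizer ((P : Subgroup S) : Set S)) % 11 = 1 := by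
  rw [card_normalizer_eq_sylow h22 hu P, Cfsg.Agent.Lib.SmallGroups2.card_sylow_mod]

end ElevenData

end Core

end Cfsg.Agent.Lib.N22
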