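import Mathlib
import Cfsg.Agent.Lib.N22A

set_option autoImplicit false
open scoped Pointwise

/-! Sylow number 22 : Sylow `3`-subgroups of order `3`. -/

namespace Cfsg.Agent.Lib.N22

section Perm

/-- A permutation group on seven points has no subgroup of order `70`. -/
theorem no_five_seven {Y : Type*} [Finite Y] (hY : Nat.card Y = 7) {v w : Equiv.Perm Y}
    (hv : orderOf v = 7) (hw : orderOf w = 5) (hc : w ∈ Subgroup.zpowers (v * w * v⁻¹)) : False := by
  classical
  haveI : Fact (Nat.Prime 7) := ⟨by norm_num⟩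
  have hv7 : v ^ 7 = 1 := by rw [← hv]; exact pow_orderOf_eq_one v
  have hw5 : w ^ 5 = 1 := by rw [← hw]; exact pow_orderOf_eq_one w
  -- `w` has a fixed point
  have h5 := ncard_modEq_fixed (X := Y) (p := 5) w hw5 Set.univ (fun _ _ => Set.mem_univ _)
  have h6 : ({x ∈ (Set.univ : Set Y) | w • x = x} : Set _) = {x | w • x = x} := by
    ext x; simp
  rw [h6, Set.ncard_univ, hY] at h5
  set G : Set Y := {x | w • x = x} with hG
  have hGpos : 0 < G.ncard := by
    unfold Nat.ModEq at h5
    omega
  have hGle : G.ncard ≤ 7 := by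
    have := Set.ncard_le_ncard (Set.subset_univ G) (Set.toFinite _)
    rwa [Set.ncard_univ, hY] at this
  -- `G` is `v`-invariant
  have hvG : ∀ x ∈ G, v • x ∈ G := by
    intro x hx
    have hx' : w • x = x := hx
    have h1 : (v * w * v⁻¹) • (v • x) = v • x := by
      rw [mul_smul, mul_smul, inv_smul_smul, hx']
    obtain ⟨j, hj⟩ := Subgroup.mem_zpowers_iff.mp hc
    show w • (v • x) = v • x
    rw [← hj]
    have h2 : (v * w * v⁻¹) ∈ MulAction.stabilizer (Equiv.Perm Y) (v • x) := h1
    exact (MulAction.stabilizer (Equiv.Perm Y) (v • x)).zpow_mem h2 j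
  -- `v` has no fixed point
  have hfree : ∀ x : Y, v • x ≠ x := by
    intro x hx
    have hcomp : ∀ z : Y, v • z = z := by
      intro z
      by_cases hz : z = x
      · rw [hz]; exact hx
      · apply fix_of_invariant ({x} : Set Y)ᶜ (by norm_num : Nat.Prime 7) hv7 _ _ hz
        · intro y hy hyx
          apply hy
          have : v • y = v • x := by rw [hx]; exact hyx
          exact smul_left_cancel _ this
        · rw [Set.ncard_compl, Set.ncard_singleton, hY]
          norm_num
    have : v = 1 := Equiv.ext hcomp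
    rw [this, orderOf_one] at hv
    omega
  have h7 := ncard_modEq_fixed (X := Y) (p := 7) v hv7 G hvG
  have h8 : ({x ∈ G | v • x = x} : Set Y) = ∅ := by
    ext x
    simp only [Set.mem_ofPred_eq, Set.mem_empty_iff_false, iff_false, not_and]
    intro _
    exact hfree x
  rw [h8, Set.ncard_empty] at h7
  have h9 : G.ncard = 7 := by
    unfold Nat.ModEq at h7
    omega
  have h10 : G = Set.univ := by
    rw [Set.eq_univ_iff_ncard, hY]
    exact h9
  have h11 : w = 1 := Equiv.ext (fun z => by
    have : z ∈ G := by rw [h10]; trivial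
    exact this)
  rw [h11, orderOf_one] at hw
  omega

theorem no_subgroup_seventy {Y : Type*} [Finite Y] (hY : Nat.card Y = 7)
    (A : Subgroup (Equiv.Perm Y)) (hA : Nat.card A = 70) : False := by
  classical
  haveI : Fact (Nat.Prime 7) := ⟨by norm_num⟩
  obtain ⟨W⟩ : Nonempty (Sylow 5 A) := inferInstance
  have h1 := Cfsg.Agent.Lib.SmallGroups2.card_sylow_mem_filter (G := A) (p := 5) (a := 1) (m := 14)
    (by rw [hA]; norm_num) (by norm_num) (by norm_num)
  have h2 : (Nat.divisors 14).filter (fun n => n % 5 = 1 % 5) = {1} := by decide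
  rw [h2, Finset.mem_singleton] at h1
  haveI hss : Subsingleton (Sylow 5 A) := (Nat.card_eq_one_iff_unique.mp h1).1
  haveI hnW : (W : Subgroup A).Normal := Sylow.normal_of_subsingleton W
  have hcW : Nat.card (W : Subgroup A) = 5 := by
    have := Cfsg.Agent.Lib.SmallGroups2.sylow_card_of_card_eq (G := A) (p := 5) (a := 1) (m := 14)
      (by rw [hA]; norm_num) (by norm_num) W
    simpa using this
  obtain ⟨w, hw⟩ := exists_prime_orderOf_dvd_card' (G := (W : Subgroup A)) 5 (by rw [hcW])
  obtain ⟨v, hv⟩ := exists_prime_orderOf_dvd_card' (G := A) 7 (by rw [hA]; norm_num)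
  have hw' : orderOf ((w : A) : Equiv.Perm Y) = 5 := by
    rw [Subgroup.orderOf_coe, Subgroup.orderOf_coe]; exact hw
  have hv' : orderOf (v : Equiv.Perm Y) = 7 := by
    rw [Subgroup.orderOf_coe]; exact hv
  -- conjugate of `w` stays in `W`
  have hconj : v * (w : A) * v⁻¹ ∈ (W : Subgroup A) := hnW.conj_mem _ w.2 v
  have hne : (⟨v * (w : A) * v⁻¹, hconj⟩ : (W : Subgroup A)) ≠ 1 := by
    intro h
    have h3 : v * (w : A) * v⁻¹ = 1 := congrArg Subtype.val h
    have h4 : (w : A) = 1 := by
      have : v⁻¹ * (v * (w : A) * v⁻¹) * v = (w : A) := by group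
      rw [← this, h3]
      group
    have h5 : w = 1 := Subtype.ext h4
    rw [h5, orderOf_one] at hw
    omega
  have hmem := mem_zpowers_of_prime_card (p := 5) hcW (g := (⟨v * (w : A) * v⁻¹, hconj⟩ : (W : Subgroup A)))
    (g' := w) hne
  obtain ⟨j, hj⟩ := Subgroup.mem_zpowers_iff.mp hmem
  refine no_five_seven hY hv' hw' (Subgroup.mem_zpowers_iff.mpr ⟨j, ?_⟩)
  have h6 := congrArg (fun x : (W : Subgroup A) => ((x : A) : Equiv.Perm Y)) hj
  simpa using h6

end Perm

section Fibers

theorem card_eq_mul_of_fibers {X Y : Type*} [Finite X] [Finite Y] (f : X → Y) (n : ℕ)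
    (h : ∀ y : Y, Nat.card {x // f x = y} = n) : Nat.card X = Nat.card Y * n := by
  classical
  haveI : Fintype Y := Fintype.ofFinite Y
  have h2 : X ≃ Σ y, {x // f x = y} := (Equiv.sigmaFiberEquiv f).symm
  rw [Nat.card_congr h2, Nat.card_sigma]
  simp [h, Nat.card_eq_fintype_card]

end Fibers

section OrderThree

variable {S : Type*} [Group S] [Finite S]

/-- The image of a `P`-orbit under an element normalizing `P`. -/
theorem smul_orbit_eq (P R : Sylow 3 S) {g : S}
    (hg : g ∈ Subgroup.normalizer ((P : Subgroup S) : Set S)) {x : Sylow 3 S} :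
    x ∈ MulAction.orbit (P : Subgroup S) R → g • x ∈ MulAction.orbit (P : Subgroup S) (g • R) := by
  rintro ⟨a, rfl⟩
  have h1 : g * (a : S) * g⁻¹ ∈ (P : Subgroup S) := (Subgroup.mem_normalizer_iff.mp hg _).mp a.2
  refine ⟨⟨_, h1⟩, ?_⟩
  show (g * (a : S) * g⁻¹) • (g • R) = g • ((a : S) • R)
  rw [smul_smul, inv_mul_cancel_right, mul_smul]

theorem smul_orbit_eq' (P R : Sylow 3 S) (g : Subgroup.normalizer ((P : Subgroup S) : Set S)) :
    g • MulAction.orbit (P : Subgroup S) R = MulAction.orbit (P : Subgroup S) ((g : S) • R) := by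
  ext x
  rw [Set.mem_smul_set]
  constructor
  · rintro ⟨y, hy, rfl⟩
    exact smul_orbit_eq P R g.2 hy
  · intro hx
    refine ⟨(g⁻¹ : Subgroup.normalizer ((P : Subgroup S) : Set S)) • x, ?_, smul_inv_smul g x⟩
    have h1 := smul_orbit_eq P ((g : S) • R) (g := (g⁻¹ : Subgroup.normalizer ((P : Subgroup S) : Set S))) (g⁻¹).2 hx
    have h2 : ((g⁻¹ : Subgroup.normalizer ((P : Subgroup S) : Set S)) : S) • ((g : S) • R) = R := by
      simp
    rw [h2] at h1
    exact h1

/-- The set of nontrivial `P`-orbits, with its action of the normalizer of `P`. -/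
def Yset (P : Sylow 3 S) :
    SubMulAction (Subgroup.normalizer ((P : Subgroup S) : Set S)) (Set (Sylow 3 S)) where
  carrier := {T | ∃ R, R ≠ P ∧ T = MulAction.orbit (P : Subgroup S) R}
  smul_mem' := by
    rintro g _ ⟨R, hR, rfl⟩
    refine ⟨(g : S) • R, ?_, smul_orbit_eq' P R g⟩
    intro h
    apply hR
    have h1 : (g : S) • P = P := smul_eq_of_mem_normalizer P g.2
    exact smul_left_cancel (g : S) (h.trans h1.symm)

variable (h22 : Nat.card (Sylow 3 S) = 22) {P : Sylow 3 S} (hP3 : Nat.card (P : Subgroup S) = 3)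

include h22 hP3 in
theorem relIndex_three {R : Sylow 3 S} (hne : R ≠ P) : (R : Subgroup S).relIndex P = 3 := by
  rcases relIndex_cases h22 P R hne with h | h
  · exact h
  · exfalso
    have h1 := Subgroup.relIndex_dvd_card (R : Subgroup S) (P : Subgroup S)
    rw [h, hP3] at h1
    omega

include h22 hP3 in
theorem inf_eq_bot {R : Sylow 3 S} (hne : R ≠ P) :
    (P : Subgroup S) ⊓ (R : Subgroup S) = ⊥ := by
  have h1 := Cfsg.Agent.Lib.SylowNum.card_mul_relIndex ((P : Subgroup S) ⊓ (R : Subgroup S))
    (P : Subgroup S) inf_le_left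
  rw [Subgroup.inf_relIndex_left, relIndex_three h22 hP3 hne, hP3] at h1
  exact Subgroup.eq_bot_of_card_eq _ (by omega)

include h22 hP3 in
theorem eq_one_of_smul_eq {R : Sylow 3 S} (hne : R ≠ P) {a : S} (ha : a ∈ (P : Subgroup S))
    (h : a • R = R) : a = 1 := by
  have h1 := mem_of_smul_eq P R ha h
  have h2 : a ∈ (P : Subgroup S) ⊓ (R : Subgroup S) := Subgroup.mem_inf.mpr ⟨ha, h1⟩
  rw [inf_eq_bot h22 hP3 hne, Subgroup.mem_bot] at h2
  exact h2

include hP3 in
theorem eq_one_of_sq {a : S} (ha : a ∈ (P : Subgroup S)) (h : a * a = 1) : a = 1 := by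
  have h3 : a ^ 3 = 1 := by
    have h1 : (⟨a, ha⟩ : (P : Subgroup S)) ^ Nat.card (P : Subgroup S) = 1 := pow_card_eq_one'
    rw [hP3] at h1
    exact congrArg Subtype.val h1
  rw [pow_three, h, mul_one] at h3
  exact h3

/-- The map from points to orbits. -/
def toY (P : Sylow 3 S) (R : {R : Sylow 3 S // R ≠ P}) : Yset P :=
  ⟨MulAction.orbit (P : Subgroup S) R.1, R.1, R.2, rfl⟩

include h22 hP3 in
theorem card_Y : Nat.card (Yset P) = 7 := by
  have h1 := card_eq_mul_of_fibers (toY P) 3 (by
    rintro ⟨_, R₀, hR₀, rfl⟩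
    have e : {x // toY P x = ⟨MulAction.orbit (P : Subgroup S) R₀, R₀, hR₀, rfl⟩} ≃
        MulAction.orbit (P : Subgroup S) R₀ := by
      refine ⟨fun x => ⟨x.1.1, ?_⟩, fun y => ⟨⟨y.1, orbit_ne P R₀ hR₀ y.2⟩, ?_⟩, ?_, ?_⟩
      · have h2 := congrArg Subtype.val x.2
        have h3 : MulAction.orbit (P : Subgroup S) x.1.1 = MulAction.orbit (P : Subgroup S) R₀ := h2
        have h4 : x.1.1 ∈ MulAction.orbit (P : Subgroup S) x.1.1 := MulAction.mem_orbit_self _
        rw [h3] at h4
        exact h4
      · apply Subtype.ext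
        exact MulAction.orbit_eq_iff.mpr y.2
      · intro x; rfl
      · intro y; rfl
    rw [Nat.card_congr e, Nat.card_coe_set_eq, card_orbit_eq, relIndex_three h22 hP3 hR₀])
  have h2 : Nat.card {R : Sylow 3 S // R ≠ P} = 21 := by
    have : ({R : Sylow 3 S | R ≠ P} : Set _) = ({P} : Set (Sylow 3 S))ᶜ := by
      ext y; simp
    rw [← Set.coe_ofPred, Nat.card_coe_set_eq, this, Set.ncard_compl, Set.ncard_singleton, h22]
  omega

include h22 hP3 in
/-- An element of `N(P)` of prime order preserving all `P`-orbits has order `3`. -/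
theorem order_three_of_ker [IsSimpleGroup S] {g : S}
    (hgN : g ∈ Subgroup.normalizer ((P : Subgroup S) : Set S))
    (hK : ∀ R : Sylow 3 S, R ≠ P → g • R ∈ MulAction.orbit (P : Subgroup S) R)
    {r : ℕ} (hr : r.Prime) (hg : orderOf g = r) : r = 3 := by
  classical
  by_contra hr3
  have hgr : g ^ r = 1 := by rw [← hg]; exact pow_orderOf_eq_one g
  have hgP : g • P = P := smul_eq_of_mem_normalizer P hgN
  have hinv : ∀ R : Sylow 3 S, R ≠ P → ∀ y ∈ MulAction.orbit (P : Subgroup S) R,
      g • y ∈ MulAction.orbit (P : Subgroup S) R := by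
    intro R hR y hy
    have hyne : y ≠ P := orbit_ne P R hR hy
    have h1 := hK y hyne
    rwa [MulAction.orbit_eq_iff.mpr hy] at h1
  -- it is enough to fix all points
  have hfin : (∀ R : Sylow 3 S, R ≠ P → g • R = R) → False := by
    intro hall
    have h1 : g = 1 := faithful_of_simple h22 g (fun x => by
      by_cases hx : x = P
      · rw [hx]; exact hgP
      · exact hall x hx)
    rw [h1, orderOf_one] at hg
    rw [← hg] at hr
    exact Nat.not_prime_one hr
  by_cases hr2 : r = 2
  · subst hr2
    have hgg : ∀ y : Sylow 3 S, g • g • y = y := by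
      intro y
      rw [smul_smul, ← pow_two, hgr, one_smul]
    -- a generator of `P`
    obtain ⟨x, hx⟩ := exists_prime_orderOf_dvd_card' (G := (P : Subgroup S)) 3 (by rw [hP3])
    have hxne : x ≠ 1 := by
      rintro rfl
      rw [orderOf_one] at hx
      omega
    have hgen : ∀ a : (P : Subgroup S), a = 1 ∨ a = x ∨ a = x⁻¹ := by
      intro a
      have h1 : a ∈ Subgroup.zpowers x := mem_zpowers_of_prime_card (p := 3) hP3 hxne
      rw [← mem_powers_iff_mem_zpowers] at h1
      obtain ⟨n, rfl⟩ := h1
      have h3 : x ^ 3 = 1 := by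
        have := pow_orderOf_eq_one x
        rwa [hx] at this
      have h4 : x ^ n = x ^ (n % 3) := by
        conv_lhs => rw [← Nat.div_add_mod n 3, pow_add, pow_mul, h3, one_pow, one_mul]
      have h5 : x ^ 2 = x⁻¹ := by
        rw [eq_inv_iff_mul_eq_one, ← pow_succ, h3]
      show x ^ n = 1 ∨ x ^ n = x ∨ x ^ n = x⁻¹
      rw [h4]
      have h6 : n % 3 < 3 := Nat.mod_lt _ (by norm_num)
      interval_cases (n % 3)
      · left; rw [pow_zero]
      · right; left; rw [pow_one]
      · right; right; exact h5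
    have hconj : g * (x : S) * g⁻¹ ∈ (P : Subgroup S) := (Subgroup.mem_normalizer_iff.mp hgN _).mp x.2
    have hcase : (⟨_, hconj⟩ : (P : Subgroup S)) = 1 ∨ (⟨_, hconj⟩ : (P : Subgroup S)) = x ∨
        (⟨_, hconj⟩ : (P : Subgroup S)) = x⁻¹ := hgen _
    rcases hcase with h | h | h
    · exfalso
      have h1 : g * (x : S) * g⁻¹ = 1 := congrArg Subtype.val h
      apply hxne
      apply Subtype.ext
      show (x : S) = 1
      have : g⁻¹ * (g * (x : S) * g⁻¹) * g = x := by group
      rw [← this, h1]
      group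
    · -- `g` centralizes `P`
      have h1 : g * (x : S) * g⁻¹ = x := congrArg Subtype.val h
      have hcomm : ∀ a : (P : Subgroup S), g * (a : S) = a * g := by
        have hcx : g * (x : S) = x * g := by
          calc g * (x : S) = (g * (x : S) * g⁻¹) * g := by group
            _ = x * g := by rw [h1]
        intro a
        rcases hgen a with rfl | rfl | rfl
        · simp
        · exact hcx
        · show g * ((x : S))⁻¹ = (x : S)⁻¹ * g
          rw [eq_inv_mul_iff_mul_eq, ← mul_assoc, ← hcx, mul_assoc, mul_inv_cancel, mul_one]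
      apply hfin
      intro R hR
      obtain ⟨a, ha⟩ := hK R hR
      have ha' : (a : S) • R = g • R := ha
      have h2 : (a : S) • (a : S) • R = R := by
        rw [ha', ← mul_smul, ← hcomm, mul_smul, ha', hgg]
      rw [smul_smul] at h2
      have h3 := eq_one_of_smul_eq h22 hP3 hR (mul_mem a.2 a.2) h2
      have h4 := eq_one_of_sq hP3 a.2 h3
      rw [← ha', h4, one_smul]
    · -- `g` inverts `P`
      have h1 : g * (x : S) * g⁻¹ = (x : S)⁻¹ := congrArg Subtype.val h
      have hcomm : ∀ a : (P : Subgroup S), g * (a : S) * g⁻¹ = (a : S)⁻¹ := by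
        intro a
        rcases hgen a with rfl | rfl | rfl
        · simp
        · exact h1
        · show g * ((x : S))⁻¹ * g⁻¹ = ((x : S)⁻¹)⁻¹
          rw [← inv_inj, mul_inv_rev, mul_inv_rev, inv_inv, inv_inv, ← mul_assoc, h1]
      exfalso
      -- count the fixed points
      let F₀ : Set (Sylow 3 S) := {R | R ≠ P ∧ g • R = R}
      have hbij : Function.Bijective (fun R : F₀ => (⟨MulAction.orbit (P : Subgroup S) R.1, R.1, R.2.1, rfl⟩ : Yset P)) := by
        constructor
        · rintro ⟨R₁, hR₁, hg₁⟩ ⟨R₂, hR₂, hg₂⟩ heq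
          have h2 : MulAction.orbit (P : Subgroup S) R₁ = MulAction.orbit (P : Subgroup S) R₂ :=
            congrArg Subtype.val heq
          have h3 : R₂ ∈ MulAction.orbit (P : Subgroup S) R₁ := by
            rw [h2]; exact MulAction.mem_orbit_self _
          obtain ⟨a, ha⟩ := h3
          have ha' : (a : S) • R₁ = R₂ := ha
          have h4 : (a : S)⁻¹ • R₁ = (a : S) • R₁ := by
            rw [← hcomm a, mul_smul, mul_smul]
            have h5 : g⁻¹ • R₁ = R₁ := by rw [inv_smul_eq_iff, hg₁]
            rw [h5, ha', hg₂]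
          have h5 : ((a : S) * (a : S)) • R₁ = R₁ := by
            rw [mul_smul, ← h4, smul_inv_smul]
          have h6 := eq_one_of_smul_eq h22 hP3 hR₁ (mul_mem a.2 a.2) h5
          have h7 := eq_one_of_sq hP3 a.2 h6
          apply Subtype.ext
          show R₁ = R₂
          rw [← ha', h7, one_smul]
        · rintro ⟨_, R, hR, rfl⟩
          have h2 := ncard_modEq_fixed (X := Sylow 3 S) (p := 2) g hgr
            (MulAction.orbit (P : Subgroup S) R) (hinv R hR)
          rw [card_orbit_eq, relIndex_three h22 hP3 hR] at h2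
          have hpos : ({x ∈ MulAction.orbit (P : Subgroup S) R | g • x = x} : Set (Sylow 3 S)).Nonempty := by
            rw [← Set.ncard_pos (Set.toFinite _)]
            unfold Nat.ModEq at h2
            omega
          obtain ⟨y, hy, hgy⟩ := hpos
          refine ⟨⟨y, orbit_ne P R hR hy, hgy⟩, ?_⟩
          apply Subtype.ext
          exact MulAction.orbit_eq_iff.mpr hy
      have h2 : Nat.card F₀ = 7 := by
        rw [Nat.card_congr (Equiv.ofBijective _ hbij), card_Y h22 hP3]
      have h3 := Cfsg.Agent.Lib.SmallGroups3.card_modEq_fixedBy_four (not_comm h22)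
        (X := Sylow 3 S) g hgr
      have h4 : (MulAction.fixedBy (Sylow 3 S) g : Set (Sylow 3 S)) = insert P F₀ := by
        ext y
        rw [Set.mem_insert_iff]
        constructor
        · intro hy
          by_cases hyP : y = P
          · exact Or.inl hyP
          · exact Or.inr ⟨hyP, hy⟩
        · rintro (rfl | hy)
          · exact hgP
          · exact hy.2
      rw [h22, Nat.card_coe_set_eq, h4, Set.ncard_insert_of_notMem (fun h => h.1 rfl) (Set.toFinite _),
        ← Nat.card_coe_set_eq, h2] at h3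
      unfold Nat.ModEq at h3
      omega
  · -- large prime
    have hr5 : 3 < r := by
      have := hr.two_le
      omega
    apply hfin
    intro R hR
    apply fix_of_invariant (MulAction.orbit (P : Subgroup S) R) hr hgr (hinv R hR)
    · rw [card_orbit_eq, relIndex_three h22 hP3 hR]
      exact hr5
    · exact MulAction.mem_orbit_self _

include h22 in
/-- A simple group as above with `12` Sylow `11`-subgroups cannot exist. -/
theorem no_twelve [IsSimpleGroup S] {u : S} (hu : orderOf u = 11)
    (h12 : Nat.card (Sylow 11 S) = 12) : False := by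
  classical
  obtain ⟨t, k, ht, htk, hk1, htN⟩ := exists_involution h22 hu
  have ht2 : t ^ 2 = 1 := by rw [← ht]; exact pow_orderOf_eq_one t
  set LS : Sylow 11 S := sylowEleven h22 hu with hLS
  have hLSc : (LS : Subgroup S) = Subgroup.zpowers u := coe_sylowEleven h22 hu
  have huLS : u ∈ (LS : Subgroup S) := by rw [hLSc]; exact Subgroup.mem_zpowers u
  have htLS : t • LS = LS := by
    rw [Sylow.smul_eq_iff_mem_normalizer]
    show t ∈ Subgroup.normalizer ((LS : Subgroup S) : Set S)
    rw [hLSc]
    exact htN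
  have hfree : ∀ y : Sylow 11 S, y ≠ LS → ∀ n : ℕ, u ^ n • y = y → 11 ∣ n := by
    intro y hy n hn
    by_contra hnd
    have hc : Nat.Coprime n (orderOf u) := by
      rw [hu, Nat.coprime_comm, Nat.Prime.coprime_iff_not_dvd (by norm_num)]
      exact hnd
    have h1 : u ^ n ∈ (y : Subgroup S) := mem_of_smul_eq LS y (pow_mem huLS n) hn
    obtain ⟨m, hm⟩ := exists_pow_eq_self_of_coprime hc
    have h2 : u ∈ (y : Subgroup S) := by
      rw [← hm]; exact pow_mem h1 m
    have h3 : (LS : Subgroup S) ≤ y := by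
      rw [hLSc, Subgroup.zpowers_le]
      exact h2
    exact hy ((le_iff_eq LS y).mp h3).symm
  have hu11 : u ^ 11 = 1 := by rw [← hu]; exact pow_orderOf_eq_one u
  have hcard0 : Nat.card {y : Sylow 11 S // y ≠ LS} = 11 := by
    have : ({y : Sylow 11 S | y ≠ LS} : Set _) = ({LS} : Set (Sylow 11 S))ᶜ := by
      ext y; simp
    rw [← Set.coe_ofPred, Nat.card_coe_set_eq, this, Set.ncard_compl, Set.ncard_singleton, h12]
  have htrans : ∀ y y' : Sylow 11 S, y ≠ LS → y' ≠ LS → ∃ a : ℕ, u ^ a • y = y' := by
    intro y y' hy hy'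
    have hne : ∀ a : ℕ, u ^ a • y ≠ LS := by
      intro a h
      apply hy
      have h1 : y = (u ^ a)⁻¹ • (u ^ a • y) := (inv_smul_smul _ _).symm
      rw [h] at h1
      rw [h1]
      exact smul_self_of_mem LS (inv_mem (pow_mem huLS a))
    let f : Fin 11 → {y : Sylow 11 S // y ≠ LS} := fun a => ⟨u ^ (a : ℕ) • y, hne a⟩
    have hinj : Function.Injective f := by
      intro a b hab
      have h' : u ^ (a : ℕ) • y = u ^ (b : ℕ) • y := congrArg Subtype.val hab
      have hnm : (a : ℕ) = b := by
        rcases le_total (a : ℕ) (b : ℕ) with hle | hle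
        · obtain ⟨d, hd⟩ := Nat.exists_eq_add_of_le hle
          rw [hd, pow_add, mul_smul] at h'
          have h2 := smul_left_cancel _ h'
          have h3 := hfree y hy _ h2.symm
          have := a.2
          have := b.2
          omega
        · obtain ⟨d, hd⟩ := Nat.exists_eq_add_of_le hle
          rw [hd, pow_add, mul_smul] at h'
          have h2 := smul_left_cancel _ h'
          have h3 := hfree y hy _ h2
          have := a.2
          have := b.2
          omega
      exact Fin.ext hnm
    have hbij := hinj.bijective_of_nat_card_le (by rw [hcard0]; simp)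
    obtain ⟨a, ha⟩ := hbij.2 ⟨y', hy'⟩
    exact ⟨a, congrArg Subtype.val ha⟩
  have h4 := Cfsg.Agent.Lib.SmallGroups3.card_modEq_fixedBy_four (not_comm h22)
    (X := Sylow 11 S) t ht2
  rw [h12, Nat.card_coe_set_eq] at h4
  set Fx : Set (Sylow 11 S) := MulAction.fixedBy (Sylow 11 S) t with hFx
  have hLSF : LS ∈ Fx := htLS
  have h5 : (Fx \ {LS}).ncard + 1 = Fx.ncard := by
    have := Set.ncard_sdiff_add_ncard_of_subset (s := {LS}) (t := Fx)
      (Set.singleton_subset_iff.mpr hLSF) (Set.toFinite _)
    rwa [Set.ncard_singleton] at this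
  have h6 : (Fx \ {LS}).ncard ≤ 1 := by
    by_contra hcon
    obtain ⟨a, ha, b, hb, hab⟩ := (Set.one_lt_ncard (Set.toFinite _)).mp (not_le.mp hcon)
    obtain ⟨c, hc⟩ := htrans a b ha.2 hb.2
    have hta : t • a = a := ha.1
    have htb : t • b = b := hb.1
    rw [← hc] at htb
    have := fix_unique hu hk1 htk (hfree a ha.2) hta htb
    exact hab (this.symm.trans hc)
  unfold Nat.ModEq at h4
  omega

include h22 hP3 in
/-- There is no simple group with `22` Sylow `3`-subgroups of order `3`. -/
theorem case_three [IsSimpleGroup S] : False := by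
  classical
  obtain ⟨u, hu⟩ := exists_order_eleven h22
  set H := Subgroup.normalizer ((P : Subgroup S) : Set S) with hH
  let φ : H →* Equiv.Perm (Yset P) := MulAction.toPermHom H (Yset P)
  have hker : ∀ g : H, g ∈ φ.ker → ∀ R : Sylow 3 S, R ≠ P →
      (g : S) • R ∈ MulAction.orbit (P : Subgroup S) R := by
    intro g hg R hR
    have h1 : φ g = 1 := hg
    have h2 : φ g ⟨MulAction.orbit (P : Subgroup S) R, R, hR, rfl⟩ =
        ⟨MulAction.orbit (P : Subgroup S) R, R, hR, rfl⟩ := by rw [h1]; rfl
    have h3 : g • MulAction.orbit (P : Subgroup S) R = MulAction.orbit (P : Subgroup S) R :=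
      congrArg Subtype.val h2
    rw [smul_orbit_eq'] at h3
    rw [← h3]
    exact MulAction.mem_orbit_self _
  have hKprime : ∀ {r : ℕ}, r.Prime → r ∣ Nat.card φ.ker → r = 3 := by
    intro r hr hd
    haveI : Fact r.Prime := ⟨hr⟩
    obtain ⟨z, hz⟩ := exists_prime_orderOf_dvd_card' r hd
    have hz' : orderOf (((z : H) : S)) = r := by
      rw [Subgroup.orderOf_coe, Subgroup.orderOf_coe]; exact hz
    exact order_three_of_ker h22 hP3 (z : H).2 (hker z z.2) hr hz'
  have hKcard : Nat.card φ.ker = 3 := by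
    have hcard := Nat.eq_prime_pow_of_unique_prime_dvd (Nat.card_pos (α := φ.ker)).ne' hKprime
    let K' : Subgroup S := φ.ker.map H.subtype
    have hK' : Nat.card K' = Nat.card φ.ker :=
      Subgroup.card_map_of_injective H.subtype_injective
    have hpg : IsPGroup 3 K' := IsPGroup.of_card (hK'.trans hcard)
    have hle : (P : Subgroup S) ≤ K' := by
      intro a ha
      have haH : a ∈ H := Subgroup.le_normalizer ha
      refine ⟨⟨a, haH⟩, ?_, rfl⟩
      show φ ⟨a, haH⟩ = 1
      ext ⟨_, R, hR, rfl⟩ : 1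
      apply Subtype.ext
      show (⟨a, haH⟩ : H) • MulAction.orbit (P : Subgroup S) R = MulAction.orbit (P : Subgroup S) R
      rw [smul_orbit_eq']
      apply MulAction.orbit_eq_iff.mpr
      exact ⟨⟨a, ha⟩, rfl⟩
    have h1 := P.is_maximal' hpg hle
    rw [← hK', h1, hP3]
  have hm : Nat.card φ.range ∣ 5040 := by
    have h1 := Subgroup.card_subgroup_dvd_card φ.range
    rw [Nat.card_perm, card_Y h22 hP3] at h1
    exact h1
  have hHm : Nat.card H = 3 * Nat.card φ.range := by
    have h1 := Subgroup.card_mul_index φ.ker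
    rw [hKcard, Subgroup.index_ker] at h1
    exact h1.symm
  have hmod := card_normalizer_mod h22 hu P
  rw [← hH, hHm] at hmod
  have hnd3 : ¬ 3 ∣ Nat.card φ.range := by
    intro hd
    have h1 := Subgroup.card_mul_index (P : Subgroup S)
    rw [hP3, card_eq_mul h22 P, ← hH, hHm] at h1
    have h2 := Sylow.not_dvd_index P
    apply h2
    obtain ⟨c, hc⟩ := hd
    refine ⟨22 * c, ?_⟩
    rw [hc] at h1
    omega
  have hmem : Nat.card φ.range ∈ (Nat.divisors 5040).filter (fun m => ¬ 3 ∣ m ∧ (3 * m) % 11 = 1) := by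
    rw [Finset.mem_filter, Nat.mem_divisors]
    exact ⟨⟨hm, by norm_num⟩, hnd3, hmod⟩
  have hset : (Nat.divisors 5040).filter (fun m => ¬ 3 ∣ m ∧ (3 * m) % 11 = 1) = {4, 70} := by
    decide +kernel
  rw [hset] at hmem
  simp only [Finset.mem_insert, Finset.mem_singleton] at hmem
  rcases hmem with h | h
  · apply no_twelve h22 hu
    rw [← card_normalizer_eq_sylow h22 hu P, ← hH, hHm, h]
  · exact no_subgroup_seventy (card_Y h22 hP3) φ.range h

end OrderThree

end Cfsg.Agent.Lib.N22
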