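import Mathlib
import Cfsg.Agent.Lib.N22B

set_option autoImplicit false
open scoped Pointwise

/-! Sylow number 22 : lines in the case of Sylow `3`-subgroups of order at least `9`. -/

namespace Cfsg.Agent.Lib.N22

open Cfsg.Agent.Lib.PCore (mem_conj_smul_iff)

section Lines

variable {S : Type*} [Group S] [Finite S]

/-- The Sylow subgroups containing `D`. -/
def Fl (D : Subgroup S) : Set (Sylow 3 S) := {A | D ≤ (A : Subgroup S)}

theorem mem_Fl {D : Subgroup S} {A : Sylow 3 S} : A ∈ Fl D ↔ D ≤ (A : Subgroup S) := Iff.rfl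

/-- The subgroups of index `3` in Sylow subgroups which lie in at least two Sylow subgroups. -/
def IsLine (D : Subgroup S) : Prop :=
  (∀ A : Sylow 3 S, 3 * Nat.card D = Nat.card (A : Subgroup S)) ∧ 1 < (Fl D).ncard

theorem inf_eq_of_le {D : Subgroup S} {A B : Sylow 3 S}
    (hc : 3 * Nat.card D = Nat.card (A : Subgroup S)) (hne : A ≠ B)
    (hA : D ≤ (A : Subgroup S)) (hB : D ≤ (B : Subgroup S)) :
    (A : Subgroup S) ⊓ (B : Subgroup S) = D := by
  have h1 : D ≤ (A : Subgroup S) ⊓ (B : Subgroup S) := le_inf hA hB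
  have c1 := Subgroup.card_dvd_of_le h1
  have c2 := Subgroup.card_dvd_of_le (inf_le_left : (A : Subgroup S) ⊓ (B : Subgroup S) ≤ A)
  obtain ⟨c, hc1⟩ := c1
  have hD0 : 0 < Nat.card D := Nat.card_pos
  have h3 : c ∣ 3 := by
    rw [hc1, ← hc, mul_comm 3] at c2
    exact Nat.dvd_of_mul_dvd_mul_left hD0 c2
  rcases (Nat.dvd_prime (by norm_num : Nat.Prime 3)).mp h3 with h | h
  · rw [h, mul_one] at hc1
    exact (Subgroup.eq_of_le_of_card_ge h1 (le_of_eq hc1)).symm
  · exfalso
    rw [h] at hc1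
    have h4 : (A : Subgroup S) ⊓ (B : Subgroup S) = A :=
      Subgroup.eq_of_le_of_card_ge inf_le_left (by rw [hc1, ← hc, mul_comm])
    exact hne ((le_iff_eq A B).mp (inf_eq_left.mp h4))

theorem relIndex_of_card {D : Subgroup S} {A : Sylow 3 S} (hD : D ≤ (A : Subgroup S))
    (hc : 3 * Nat.card D = Nat.card (A : Subgroup S)) : D.relIndex A = 3 := by
  have h1 := Cfsg.Agent.Lib.SylowNum.card_mul_relIndex D (A : Subgroup S) hD
  have hD0 : 0 < Nat.card D := Nat.card_pos
  rw [← hc, mul_comm 3] at h1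
  exact Nat.eq_of_mul_eq_mul_left hD0 h1

theorem subgroupOf_normal {D : Subgroup S} {A : Sylow 3 S}
    (hD : D ≤ (A : Subgroup S)) (hc : 3 * Nat.card D = Nat.card (A : Subgroup S)) :
    (D.subgroupOf (A : Subgroup S)).Normal := by
  apply Subgroup.normal_of_index_eq_minFac_card
  have h1 : (D.subgroupOf (A : Subgroup S)).index = 3 := relIndex_of_card hD hc
  rw [h1]
  obtain ⟨k, hk⟩ := IsPGroup.iff_card.mp A.isPGroup'
  have h2 : 3 ∣ Nat.card (A : Subgroup S) := by
    rw [← hc]; exact Dvd.intro _ rfl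
  rw [hk] at h2 ⊢
  have hk0 : k ≠ 0 := by
    rintro rfl
    norm_num at h2
  rw [Nat.Prime.pow_minFac (by norm_num : Nat.Prime 3) hk0]

theorem normal_conj {D : Subgroup S} {A : Sylow 3 S} (hD : D ≤ (A : Subgroup S))
    (hc : 3 * Nat.card D = Nat.card (A : Subgroup S)) {a d : S} (ha : a ∈ (A : Subgroup S))
    (hd : d ∈ D) : a * d * a⁻¹ ∈ D := by
  have hn := subgroupOf_normal hD hc
  have h3 : (⟨d, hD hd⟩ : (A : Subgroup S)) ∈ D.subgroupOf (A : Subgroup S) :=
    Subgroup.mem_subgroupOf.mpr hd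
  have h4 := hn.conj_mem _ h3 ⟨a, ha⟩
  exact Subgroup.mem_subgroupOf.mp h4

theorem smul_mem_Fl {D : Subgroup S} {A R : Sylow 3 S} (hD : D ≤ (A : Subgroup S))
    (hc : 3 * Nat.card D = Nat.card (A : Subgroup S)) {a : S} (ha : a ∈ (A : Subgroup S))
    (hR : R ∈ Fl D) : a • R ∈ Fl D := by
  intro d hd
  rw [Sylow.coe_subgroup_smul, mem_conj_smul_iff]
  apply hR
  have := normal_conj hD hc (inv_mem ha) hd
  simpa using this

theorem relIndex_eq_three_of {D : Subgroup S} {A R : Sylow 3 S}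
    (hc : 3 * Nat.card D = Nat.card (A : Subgroup S)) (hD : D ≤ (A : Subgroup S))
    (hR : D ≤ (R : Subgroup S)) (hne : A ≠ R) : (R : Subgroup S).relIndex A = 3 := by
  have h1 := inf_eq_of_le hc hne hD hR
  rw [← Subgroup.inf_relIndex_left, h1]
  exact relIndex_of_card hD hc

theorem card_inf_of_mem_U {A R : Sylow 3 S} (hR : R ∈ U A) :
    3 * Nat.card ((A : Subgroup S) ⊓ (R : Subgroup S) : Subgroup S) = Nat.card (A : Subgroup S) := by
  have e : (R : Subgroup S).relIndex A = 3 := hR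
  have h1 := Cfsg.Agent.Lib.SylowNum.card_mul_relIndex ((A : Subgroup S) ⊓ (R : Subgroup S))
    (A : Subgroup S) inf_le_left
  rw [Subgroup.inf_relIndex_left, e] at h1
  rw [← h1, mul_comm]

theorem isLine_inf {A R : Sylow 3 S} (hR : R ∈ U A) (hne : A ≠ R) :
    IsLine ((A : Subgroup S) ⊓ (R : Subgroup S)) := by
  refine ⟨fun B => ?_, ?_⟩
  · rw [card_inf_of_mem_U hR]
    exact card_sylow_eq A B
  · rw [Set.one_lt_ncard (Set.toFinite _)]
    have hA : A ∈ Fl ((A : Subgroup S) ⊓ (R : Subgroup S)) := mem_Fl.mpr inf_le_left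
    have hR' : R ∈ Fl ((A : Subgroup S) ⊓ (R : Subgroup S)) := mem_Fl.mpr inf_le_right
    exact ⟨A, hA, R, hR', hne⟩

theorem three_dvd_Fl {D : Subgroup S} {A : Sylow 3 S} (hD : D ≤ (A : Subgroup S))
    (hc : 3 * Nat.card D = Nat.card (A : Subgroup S)) : 3 ∣ (Fl D \ {A}).ncard := by
  apply dvd_ncard_of_invariant (G := (A : Subgroup S))
  · rintro a R ⟨hR, hRA⟩
    refine ⟨smul_mem_Fl hD hc a.2 hR, ?_⟩
    exact orbit_ne A R hRA ⟨a, rfl⟩
  · rintro R ⟨hR, hRA⟩
    rw [card_orbit_eq, relIndex_eq_three_of hc hD hR (Ne.symm hRA)]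

theorem Fl_conj (g : S) (D : Subgroup S) :
    Fl (MulAut.conj g • D) = (fun A : Sylow 3 S => g • A) '' Fl D := by
  ext B
  constructor
  · intro hB
    refine ⟨g⁻¹ • B, ?_, by simp⟩
    have h1 : MulAut.conj g • D ≤ (B : Subgroup S) := hB
    show D ≤ ((g⁻¹ • B : Sylow 3 S) : Subgroup S)
    rw [Sylow.coe_subgroup_smul]
    rwa [Subgroup.pointwise_smul_subset_iff, ← map_inv] at h1
  · rintro ⟨A, hA, rfl⟩
    show MulAut.conj g • D ≤ ((g • A : Sylow 3 S) : Subgroup S)
    rw [Sylow.coe_subgroup_smul]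
    exact Subgroup.pointwise_smul_le_pointwise_smul_iff.mpr hA

theorem ncard_Fl_conj (g : S) (D : Subgroup S) :
    (Fl (MulAut.conj g • D)).ncard = (Fl D).ncard := by
  rw [Fl_conj, Set.ncard_image_of_injective _ (MulAction.injective g)]

theorem isLine_conj (g : S) {D : Subgroup S} (hD : IsLine D) : IsLine (MulAut.conj g • D) := by
  refine ⟨fun A => ?_, ?_⟩
  · rw [card_smul_subgroup]
    exact hD.1 A
  · rw [ncard_Fl_conj]
    exact hD.2

/-- The lines with `f` points through `A`. -/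
def Xf (f : ℕ) (A : Sylow 3 S) : Set (Subgroup S) :=
  {D | IsLine D ∧ D ≤ (A : Subgroup S) ∧ (Fl D).ncard = f}

theorem Xf_conj (f : ℕ) (g : S) (A : Sylow 3 S) :
    Xf f (g • A) = (fun D : Subgroup S => MulAut.conj g • D) '' Xf f A := by
  ext D
  constructor
  · rintro ⟨h1, h2, h3⟩
    refine ⟨MulAut.conj g⁻¹ • D, ⟨isLine_conj _ h1, ?_, ?_⟩, ?_⟩
    · rw [Sylow.coe_subgroup_smul] at h2
      rw [Subgroup.pointwise_smul_subset_iff]
      simpa using h2
    · rw [ncard_Fl_conj, h3]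
    · show MulAut.conj g • MulAut.conj g⁻¹ • D = D
      rw [smul_smul, ← map_mul, mul_inv_cancel, map_one, one_smul]
  · rintro ⟨D', ⟨h1, h2, h3⟩, rfl⟩
    refine ⟨isLine_conj _ h1, ?_, ?_⟩
    · rw [Sylow.coe_subgroup_smul]
      exact Subgroup.pointwise_smul_le_pointwise_smul_iff.mpr h2
    · rw [ncard_Fl_conj, h3]

theorem ncard_Xf_conj (f : ℕ) (g : S) (A : Sylow 3 S) : (Xf f (g • A)).ncard = (Xf f A).ncard := by
  rw [Xf_conj, Set.ncard_image_of_injective _ (MulAction.injective _)]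

theorem ncard_Xf_eq (f : ℕ) (A B : Sylow 3 S) : (Xf f A).ncard = (Xf f B).ncard := by
  obtain ⟨g, rfl⟩ := MulAction.exists_smul_eq S A B
  exact (ncard_Xf_conj f g A).symm

/-- Double counting of lines and points. -/
theorem double_count (h22 : Nat.card (Sylow 3 S) = 22) (f : ℕ) (A : Sylow 3 S) :
    22 * (Xf f A).ncard = f * ({D : Subgroup S | IsLine D ∧ (Fl D).ncard = f}).ncard := by
  let X := {p : Sylow 3 S × Subgroup S // IsLine p.2 ∧ p.2 ≤ (p.1 : Subgroup S) ∧ (Fl p.2).ncard = f}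
  have h1 : Nat.card X = 22 * (Xf f A).ncard := by
    have := card_eq_mul_of_fibers (fun x : X => x.1.1) (Xf f A).ncard (by
      intro B
      rw [ncard_Xf_eq f A B, ← Nat.card_coe_set_eq]
      apply Nat.card_congr
      refine ⟨fun x => ⟨x.1.1.2, ?_⟩, fun y => ⟨⟨(B, y.1), y.2.1, y.2.2.1, y.2.2.2⟩, rfl⟩, ?_, ?_⟩
      · rcases x with ⟨⟨⟨C, D⟩, h⟩, hx⟩
        have h3 : C = B := hx
        subst h3
        exact ⟨h.1, h.2.1, h.2.2⟩
      · rintro ⟨⟨⟨C, D⟩, h⟩, rfl⟩
        rfl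
      · intro y; rfl)
    rw [this, h22]
  have h2 : Nat.card X = ({D : Subgroup S | IsLine D ∧ (Fl D).ncard = f}).ncard * f := by
    have := card_eq_mul_of_fibers
      (fun x : X => (⟨x.1.2, x.2.1, x.2.2.2⟩ : {D : Subgroup S | IsLine D ∧ (Fl D).ncard = f})) f (by
      rintro ⟨D, hD1, hD2⟩
      refine Eq.trans ?_ hD2
      refine (Nat.card_congr ?_).trans (Nat.card_coe_set_eq (Fl D))
      refine ⟨fun x => ⟨x.1.1.1, ?_⟩, fun y => ⟨⟨(y.1, D), hD1, y.2, hD2⟩, rfl⟩, ?_, ?_⟩
      · have h2 := congrArg Subtype.val x.2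
        have h3 : x.1.1.2 = D := h2
        have h4 : x.1.1.2 ≤ ((x.1.1.1 : Sylow 3 S) : Subgroup S) := x.1.2.2.1
        intro d hd
        exact h4 (by rw [h3]; exact hd)
      · rintro ⟨⟨⟨C, D'⟩, h⟩, hx⟩
        have h3 : D' = D := congrArg Subtype.val hx
        subst h3
        rfl
      · intro y; rfl)
    rw [this, Nat.card_coe_set_eq]
  rw [← h1, h2, mul_comm]

theorem ncard_Fl_sdiff {D : Subgroup S} {A : Sylow 3 S} (hA : A ∈ Fl D) :
    (Fl D \ {A}).ncard + 1 = (Fl D).ncard := by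
  have := Set.ncard_sdiff_add_ncard_of_subset (s := {A}) (t := Fl D)
    (Set.singleton_subset_iff.mpr hA) (Set.toFinite _)
  rwa [Set.ncard_singleton] at this

theorem ne_of_mem_U {A R : Sylow 3 S} (hR : R ∈ U A) : A ≠ R := by
  intro h
  have e : (R : Subgroup S).relIndex A = 3 := hR
  rw [h, relIndex_self] at e
  omega

/-- The points of `U A` on lines with `f` points. -/
def Uf (f : ℕ) (A : Sylow 3 S) : Set (Sylow 3 S) :=
  {R | R ∈ U A ∧ (Fl ((A : Subgroup S) ⊓ (R : Subgroup S))).ncard = f}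

theorem ncard_Uf (f : ℕ) (A : Sylow 3 S) : (Uf f A).ncard = (Xf f A).ncard * (f - 1) := by
  have hRne : ∀ R ∈ U A, A ≠ R := fun R hR => ne_of_mem_U hR
  have h := card_eq_mul_of_fibers (X := Uf f A) (Y := Xf f A)
    (fun R => ⟨(A : Subgroup S) ⊓ (R.1 : Subgroup S),
      isLine_inf R.2.1 (hRne _ R.2.1), inf_le_left, R.2.2⟩) (f - 1) (by
    rintro ⟨D, hD1, hD2, hD3⟩
    have hAD : A ∈ Fl D := hD2
    have h1 := ncard_Fl_sdiff hAD
    have h2 : (Fl D \ {A}).ncard = f - 1 := by omega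
    refine Eq.trans ?_ h2
    refine (Nat.card_congr ?_).trans (Nat.card_coe_set_eq (Fl D \ {A}))
    have hc := hD1.1 A
    refine ⟨fun x => ⟨x.1.1, ?_, ?_⟩, fun y => ⟨⟨y.1, ?_, ?_⟩, ?_⟩, ?_, ?_⟩
    · have h3 : (A : Subgroup S) ⊓ (x.1.1 : Subgroup S) = D := congrArg Subtype.val x.2
      have h4 : (A : Subgroup S) ⊓ (x.1.1 : Subgroup S) ≤ (x.1.1 : Subgroup S) := inf_le_right
      rw [h3] at h4
      exact h4
    · intro h3
      exact hRne _ x.1.2.1 h3.symm
    · exact relIndex_eq_three_of hc hD2 y.2.1 (fun h => y.2.2 h.symm)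
    · rw [inf_eq_of_le hc (fun h => y.2.2 h.symm) hD2 y.2.1]
      exact hD3
    · apply Subtype.ext
      exact inf_eq_of_le hc (fun h => y.2.2 h.symm) hD2 y.2.1
    · intro x; rfl
    · intro y; rfl)
  rw [Nat.card_coe_set_eq, Nat.card_coe_set_eq] at h
  exact h

theorem ncard_Uf_le (h22 : Nat.card (Sylow 3 S) = 22) (f : ℕ) (A : Sylow 3 S) :
    (Xf f A).ncard * (f - 1) ≤ 21 := by
  rw [← ncard_Uf]
  have h1 : (Uf f A).ncard ≤ (U A).ncard := Set.ncard_le_ncard (fun R hR => hR.1) (Set.toFinite _)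
  have h2 := ncard_U_add_Z h22 A
  omega

/-- With Sylow subgroups of order at least `9`, a line has at most `21` points. -/
theorem ncard_Fl_le [IsSimpleGroup S] (h22 : Nat.card (Sylow 3 S) = 22) (h9 : ∀ A : Sylow 3 S, 9 ≤ Nat.card (A : Subgroup S))
    {D : Subgroup S} (hD : IsLine D) : (Fl D).ncard ≤ 21 := by
  by_contra hcon
  have h1 : (Fl D).ncard ≤ 22 := by
    have := Set.ncard_le_ncard (Set.subset_univ (Fl D)) (Set.toFinite _)
    rwa [Set.ncard_univ, h22] at this
  have h2 : Fl D = Set.univ := by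
    rw [Set.eq_univ_iff_ncard, h22]
    omega
  obtain ⟨P⟩ : Nonempty (Sylow 3 S) := inferInstance
  have h3 := hD.1 P
  have h4 := h9 P
  have hne : D ≠ ⊥ := by
    rintro rfl
    rw [Subgroup.card_bot] at h3
    omega
  obtain ⟨d, hd, hd1⟩ := (Subgroup.bot_or_exists_ne_one D).resolve_left hne
  apply hd1
  apply faithful_of_simple h22
  intro x
  have hx : x ∈ Fl D := by rw [h2]; trivial
  exact smul_self_of_mem x (hx hd)

/-- All lines have four points. -/
theorem line_size_four [IsSimpleGroup S] (h22 : Nat.card (Sylow 3 S) = 22)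
    (h9 : ∀ A : Sylow 3 S, 9 ≤ Nat.card (A : Subgroup S))
    {D : Subgroup S} (hD : IsLine D) : (Fl D).ncard = 4 := by
  have hle := ncard_Fl_le h22 h9 hD
  have hne : (Fl D).Nonempty := by
    rw [← Set.ncard_pos (Set.toFinite _)]
    have := hD.2
    omega
  obtain ⟨A, hA⟩ := hne
  have h1 := ncard_Fl_sdiff hA
  obtain ⟨c, hc⟩ := three_dvd_Fl hA (hD.1 A)
  have h2 := hD.2
  set f := (Fl D).ncard with hf
  have hx : 1 ≤ (Xf f A).ncard := by
    rw [Nat.succ_le_iff, Set.ncard_pos (Set.toFinite _)]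
    exact ⟨D, hD, hA, rfl⟩
  have h3 := ncard_Uf_le h22 f A
  have h4 := double_count h22 f A
  have hc7 : c < 7 := by omega
  interval_cases c
  · omega
  · omega
  · have hf7 : f = 7 := by omega
    rw [hf7] at h3 h4 hx
    omega
  · have hf7 : f = 10 := by omega
    rw [hf7] at h3 h4 hx
    omega
  · have hf7 : f = 13 := by omega
    rw [hf7] at h3 h4 hx
    omega
  · have hf7 : f = 16 := by omega
    rw [hf7] at h3 h4 hx
    omega
  · have hf7 : f = 19 := by omega
    rw [hf7] at h3 h4 hx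
    omega

/-- There are `12` points at index `3` and four lines through each point. -/
theorem card_U_twelve [IsSimpleGroup S] (h22 : Nat.card (Sylow 3 S) = 22)
    (h9 : ∀ A : Sylow 3 S, 9 ≤ Nat.card (A : Subgroup S)) (A : Sylow 3 S) :
    (U A).ncard = 12 ∧ (Xf 4 A).ncard = 4 := by
  have hRne : ∀ R ∈ U A, A ≠ R := fun R hR => ne_of_mem_U hR
  have h1 : Uf 4 A = U A := by
    ext R
    constructor
    · exact fun h => h.1
    · intro h
      exact ⟨h, line_size_four h22 h9 (isLine_inf h (hRne R h))⟩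
  have h2 := ncard_Uf 4 A
  rw [h1] at h2
  have h3 := double_count h22 4 A
  rcases ncard_U_cases h22 A with h | h | h <;> rw [h] at h2 <;> omega

theorem ne_of_mem_Z {A R : Sylow 3 S} (hR : R ∈ Z A) : A ≠ R := by
  intro h
  have e : (R : Subgroup S).relIndex A = 9 := hR
  rw [h, relIndex_self] at e
  omega

theorem card_inf_of_mem_Z {A R : Sylow 3 S} (hR : R ∈ Z A) :
    9 * Nat.card ((A : Subgroup S) ⊓ (R : Subgroup S) : Subgroup S) = Nat.card (A : Subgroup S) := by
  have e : (R : Subgroup S).relIndex A = 9 := hR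
  have h1 := Cfsg.Agent.Lib.SylowNum.card_mul_relIndex ((A : Subgroup S) ⊓ (R : Subgroup S))
    (A : Subgroup S) inf_le_left
  rw [Subgroup.inf_relIndex_left, e] at h1
  rw [← h1, mul_comm]

theorem card_Z_nine (h22 : Nat.card (Sylow 3 S) = 22) (hU : ∀ A : Sylow 3 S, (U A).ncard = 12)
    (A : Sylow 3 S) : (Z A).ncard = 9 := by
  have := ncard_U_add_Z h22 A
  have h2 := hU A
  omega

theorem Z_single (h22 : Nat.card (Sylow 3 S) = 22) (hU : ∀ A : Sylow 3 S, (U A).ncard = 12)
    {P Q z : Sylow 3 S} (hQ : Q ∈ Z P) (hz : z ∈ Z P) : ∃ a ∈ (P : Subgroup S), a • Q = z := by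
  have e : (Q : Subgroup S).relIndex P = 9 := hQ
  have hsub : MulAction.orbit (P : Subgroup S) Q ⊆ Z P := by
    rintro _ ⟨a, rfl⟩
    show (((a : S) • Q : Sylow 3 S) : Subgroup S).relIndex P = 9
    rw [relIndex_smul_of_mem' P Q a.2, e]
  have heq : MulAction.orbit (P : Subgroup S) Q = Z P :=
    Set.eq_of_subset_of_ncard_le hsub (by rw [card_orbit_eq, e, card_Z_nine h22 hU P])
  rw [← heq] at hz
  obtain ⟨a, ha⟩ := hz
  exact ⟨a, a.2, ha⟩

/-- A subgroup not contained in a normal subgroup of index three of a Sylow subgroup. -/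
theorem card_inf_of_not_le {D W : Subgroup S} {R : Sylow 3 S} (hD : D ≤ (R : Subgroup S))
    (hc : 3 * Nat.card D = Nat.card (R : Subgroup S)) (hW : W ≤ (R : Subgroup S)) (hne : ¬ W ≤ D) :
    3 * Nat.card (D ⊓ W : Subgroup S) = Nat.card W := by
  haveI hn := subgroupOf_normal hD hc
  have h1 : (D.subgroupOf (R : Subgroup S)).relIndex (W.subgroupOf (R : Subgroup S)) ∣
      (D.subgroupOf (R : Subgroup S)).index := Subgroup.relIndex_dvd_index_of_normal _ _
  rw [Subgroup.relIndex_subgroupOf hW] at h1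
  have h2 : (D.subgroupOf (R : Subgroup S)).index = 3 := relIndex_of_card hD hc
  rw [h2] at h1
  have h3 : D.relIndex W = 3 := by
    rcases (Nat.dvd_prime (by norm_num : Nat.Prime 3)).mp h1 with h | h
    · exact absurd (Subgroup.relIndex_eq_one.mp h) hne
    · exact h
  have h4 := Cfsg.Agent.Lib.SylowNum.card_mul_relIndex (D ⊓ W) W inf_le_right
  rw [Subgroup.inf_relIndex_right, h3] at h4
  rw [← h4, mul_comm]

/-- Conjugation by an element of `A` does not change the intersection with `A`. -/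
theorem inf_smul_eq {A x : Sylow 3 S} (hx : x ∈ U A) {d : S} (hd : d ∈ (A : Subgroup S)) :
    (A : Subgroup S) ⊓ ((d • x : Sylow 3 S) : Subgroup S) = (A : Subgroup S) ⊓ (x : Subgroup S) := by
  have hc := card_inf_of_mem_U hx
  have hn : ∀ {a e : S}, a ∈ (A : Subgroup S) → e ∈ (A : Subgroup S) ⊓ (x : Subgroup S) →
      a * e * a⁻¹ ∈ (A : Subgroup S) ⊓ (x : Subgroup S) :=
    fun ha he => normal_conj inf_le_left hc ha he
  ext y
  rw [Subgroup.mem_inf, Subgroup.mem_inf, Sylow.coe_subgroup_smul, mem_conj_smul_iff]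
  constructor
  · rintro ⟨h1, h2⟩
    refine ⟨h1, ?_⟩
    have h3 : d⁻¹ * y * d ∈ (A : Subgroup S) ⊓ (x : Subgroup S) :=
      Subgroup.mem_inf.mpr ⟨(A : Subgroup S).mul_mem ((A : Subgroup S).mul_mem (inv_mem hd) h1) hd, h2⟩
    have h4 := hn hd h3
    have e : d * (d⁻¹ * y * d) * d⁻¹ = y := by group
    rw [e] at h4
    exact (Subgroup.mem_inf.mp h4).2
  · rintro ⟨h1, h2⟩
    refine ⟨h1, ?_⟩
    have h4 := hn (inv_mem hd) (Subgroup.mem_inf.mpr ⟨h1, h2⟩)
    simpa using (Subgroup.mem_inf.mp h4).2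

theorem ncard_U_sdiff (hU : ∀ A : Sylow 3 S, (U A).ncard = 12) {D : Subgroup S} (hD : IsLine D)
    (hf : (Fl D).ncard = 4) {X : Sylow 3 S} (hX : X ∈ Fl D) : (U X \ Fl D).ncard = 9 := by
  have hsub : Fl D \ {X} ⊆ U X := by
    rintro R ⟨hR, hRX⟩
    exact relIndex_eq_three_of (hD.1 X) hX hR (fun h => hRX h.symm)
  have h1 : U X \ Fl D = U X \ (Fl D \ {X}) := by
    ext R
    constructor
    · rintro ⟨h1, h2⟩
      exact ⟨h1, fun h3 => h2 h3.1⟩
    · rintro ⟨h1, h2⟩
      refine ⟨h1, fun h3 => h2 ⟨h3, ?_⟩⟩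
      rintro rfl
      exact ne_of_mem_U h1 rfl
  have h2 := Set.ncard_sdiff_add_ncard_of_subset hsub (Set.toFinite _)
  have h3 := ncard_Fl_sdiff hX
  rw [h1]
  have := hU X
  omega

/-- The main claim : the intersections at index `9` lie in all lines. -/
theorem E_le [IsSimpleGroup S] (h22 : Nat.card (Sylow 3 S) = 22)
    (hU : ∀ A : Sylow 3 S, (U A).ncard = 12) (hf : ∀ {D : Subgroup S}, IsLine D → (Fl D).ncard = 4)
    {P Q : Sylow 3 S} (hQ : Q ∈ Z P) {D D₂ : Subgroup S} (hD : IsLine D)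
    (hDP : D ≤ (P : Subgroup S)) (hD₂ : IsLine D₂) (hD₂P : D₂ ≤ (P : Subgroup S)) (hne : D₂ ≠ D) :
    (P : Subgroup S) ⊓ (Q : Subgroup S) ≤ D := by
  classical
  by_contra hE
  have hPD : P ∈ Fl D := hDP
  obtain ⟨R, hRD, hRP⟩ := Set.exists_ne_of_one_lt_ncard hD.2 P
  have hRD' : D ≤ (R : Subgroup S) := hRD
  have hcard : ∀ A : Sylow 3 S, 3 * Nat.card D = Nat.card (A : Subgroup S) := hD.1
  have hpos : 0 < Nat.card D := Nat.card_pos
  have hsame : ∀ {W : Subgroup S}, W ≤ D → Nat.card W = Nat.card D → W = D :=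
    fun h1 h2 => Subgroup.eq_of_le_of_card_ge h1 (le_of_eq h2.symm)
  -- points of `Z P`
  have h1 : ∀ z ∈ Z P, 9 * Nat.card (D ⊓ (z : Subgroup S) : Subgroup S) = Nat.card D := by
    intro z hz
    obtain ⟨a, ha, rfl⟩ := Z_single h22 hU hQ hz
    set z := a • Q with hzdef
    have hnot : ¬ (P : Subgroup S) ⊓ (z : Subgroup S) ≤ D := by
      intro hle
      apply hE
      intro e he
      have he1 := (Subgroup.mem_inf.mp he).1
      have he2 := (Subgroup.mem_inf.mp he).2
      have h2 : a * e * a⁻¹ ∈ (P : Subgroup S) ⊓ (z : Subgroup S) := by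
        refine Subgroup.mem_inf.mpr ⟨mul_mem (mul_mem ha he1) (inv_mem ha), ?_⟩
        rw [hzdef, Sylow.coe_subgroup_smul, mem_conj_smul_iff]
        simpa [mul_assoc] using he2
      have h3 := normal_conj hDP (hcard P) (inv_mem ha) (hle h2)
      simpa [mul_assoc] using h3
    have h2 := card_inf_of_not_le hDP (hcard P) inf_le_left hnot
    have h3 : D ⊓ ((P : Subgroup S) ⊓ (z : Subgroup S)) = D ⊓ (z : Subgroup S) := by
      rw [← inf_assoc, inf_eq_left.mpr hDP]
    rw [h3] at h2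
    have h4 := card_inf_of_mem_Z hz
    have h5 := hcard P
    omega
  -- points of `U R` off the line
  have h2 : ∀ y ∈ U R, y ∉ Fl D → 3 * Nat.card (D ⊓ (y : Subgroup S) : Subgroup S) = Nat.card D := by
    intro y hy hyD
    have hc1 := card_inf_of_mem_U hy
    have hnot : ¬ (R : Subgroup S) ⊓ (y : Subgroup S) ≤ D := by
      intro hle
      apply hyD
      have h3 : (R : Subgroup S) ⊓ (y : Subgroup S) = D := hsame hle (by
        have := hcard R
        omega)
      show D ≤ _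
      rw [← h3]
      exact inf_le_right
    have h3 := card_inf_of_not_le hRD' (hcard R) inf_le_left hnot
    have h4 : D ⊓ ((R : Subgroup S) ⊓ (y : Subgroup S)) = D ⊓ (y : Subgroup S) := by
      rw [← inf_assoc, inf_eq_left.mpr hRD']
    rw [h4] at h3
    have h5 := hcard R
    omega
  -- comparison of `U R` and `U P`
  have hsub : U R \ Fl D ⊆ U P \ Fl D := by
    rintro y ⟨hy, hyD⟩
    refine ⟨?_, hyD⟩
    have hyP : y ≠ P := by
      rintro rfl
      exact hyD hPD
    rcases relIndex_cases h22 P y hyP with h | h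
    · exact h
    · exfalso
      have h3 := h1 y h
      have h4 := h2 y hy hyD
      omega
  have heq : U R \ Fl D = U P \ Fl D :=
    Set.eq_of_subset_of_ncard_le hsub (by
      rw [ncard_U_sdiff hU hD (hf hD) hRD, ncard_U_sdiff hU hD (hf hD) hPD])
  -- a point on the second line
  have hPD₂ : P ∈ Fl D₂ := hD₂P
  obtain ⟨a, haD₂, haP⟩ := Set.exists_ne_of_one_lt_ncard hD₂.2 P
  have haD₂' : D₂ ≤ (a : Subgroup S) := haD₂
  have haU : a ∈ U P := relIndex_eq_three_of (hD₂.1 P) hD₂P haD₂' (fun h => haP h.symm)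
  have hPa : (P : Subgroup S) ⊓ (a : Subgroup S) = D₂ :=
    inf_eq_of_le (hD₂.1 P) (fun h => haP h.symm) hD₂P haD₂'
  have haD : a ∉ Fl D := by
    intro h
    have h3 : D ≤ (P : Subgroup S) ⊓ (a : Subgroup S) := le_inf hDP h
    rw [hPa] at h3
    apply hne
    have h4 := hD.1 P
    have h5 := hD₂.1 P
    exact (Subgroup.eq_of_le_of_card_ge h3 (by omega)).symm
  have haUR : a ∈ U R := by
    have : a ∈ U R \ Fl D := by
      rw [heq]
      exact ⟨haU, haD⟩
    exact this.1
  -- an element of `D` moving `a`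
  have hex : ∃ d ∈ D, d • a ≠ a := by
    by_contra hcon
    push Not at hcon
    apply haD
    intro d hd
    exact mem_of_smul_eq P a (hDP hd) (hcon d hd)
  obtain ⟨d, hd, hda⟩ := hex
  have e1 := inf_smul_eq haU (hDP hd)
  have e2 := inf_smul_eq haUR (hRD' hd)
  have c1 := card_inf_of_mem_U haU
  have c2 := card_inf_of_mem_U haUR
  have e3 : (a : Subgroup S) ⊓ ((d • a : Sylow 3 S) : Subgroup S) = (P : Subgroup S) ⊓ (a : Subgroup S) := by
    apply inf_eq_of_le (by rw [c1]; exact card_sylow_eq P a) (Ne.symm hda) inf_le_right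
    rw [← e1]
    exact inf_le_right
  have e4 : (a : Subgroup S) ⊓ ((d • a : Sylow 3 S) : Subgroup S) = (R : Subgroup S) ⊓ (a : Subgroup S) := by
    apply inf_eq_of_le (by rw [c2]; exact card_sylow_eq R a) (Ne.symm hda) inf_le_right
    rw [← e2]
    exact inf_le_right
  have e5 : (P : Subgroup S) ⊓ (a : Subgroup S) = (R : Subgroup S) ⊓ (a : Subgroup S) := e3.symm.trans e4
  have hPR : (P : Subgroup S) ⊓ (R : Subgroup S) = D := inf_eq_of_le (hcard P) (Ne.symm hRP) hDP hRD'
  have h3 : (P : Subgroup S) ⊓ (a : Subgroup S) ≤ D := by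
    rw [← hPR]
    apply le_inf inf_le_left
    rw [e5]
    exact inf_le_left
  have h4 : (P : Subgroup S) ⊓ (a : Subgroup S) = D := hsame h3 (by
    have := hcard P
    omega)
  apply haD
  show D ≤ _
  rw [← h4]
  exact inf_le_right

/-- The intersections at index `9` are trivial. -/
theorem E_eq_bot [IsSimpleGroup S] (h22 : Nat.card (Sylow 3 S) = 22)
    (h9 : ∀ A : Sylow 3 S, 9 ≤ Nat.card (A : Subgroup S)) {P Q : Sylow 3 S} (hQ : Q ∈ Z P) :
    (P : Subgroup S) ⊓ (Q : Subgroup S) = ⊥ := by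
  classical
  have hU : ∀ A : Sylow 3 S, (U A).ncard = 12 := fun A => (card_U_twelve h22 h9 A).1
  have hf : ∀ {D : Subgroup S}, IsLine D → (Fl D).ncard = 4 := fun hD => line_size_four h22 h9 hD
  have hX := (card_U_twelve h22 h9 P).2
  obtain ⟨D₁, hD₁, D₂, hD₂, hne⟩ := (Set.one_lt_ncard (Set.toFinite _)).mp (by omega : 1 < (Xf 4 P).ncard)
  set E := (P : Subgroup S) ⊓ (Q : Subgroup S) with hE
  have hle : ∀ {D : Subgroup S}, IsLine D → D ≤ (P : Subgroup S) → E ≤ D := by
    intro D hD hDP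
    by_cases h1 : D = D₁
    · exact E_le h22 hU hf hQ hD hDP hD₂.1 hD₂.2.1 (fun h => hne (h1.symm.trans h.symm))
    · exact E_le h22 hU hf hQ hD hDP hD₁.1 hD₁.2.1 (fun h => h1 h.symm)
  have hE1 := hle hD₁.1 hD₁.2.1
  have hE2 := hle hD₂.1 hD₂.2.1
  have hc₁ := hD₁.1.1 P
  have hc₂ := hD₂.1.1 P
  have hnot : ¬ D₂ ≤ D₁ := by
    intro h
    exact hne (Subgroup.eq_of_le_of_card_ge h (by omega)).symm
  have h1 := card_inf_of_not_le hD₁.2.1 hc₁ hD₂.2.1 hnot
  have h2 := card_inf_of_mem_Z hQ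
  have hEeq : E = D₁ ⊓ D₂ := Subgroup.eq_of_le_of_card_ge (le_inf hE1 hE2) (by
    rw [← hE] at h2
    omega)
  have hnormal : ∀ {a e : S}, a ∈ (P : Subgroup S) → e ∈ E → a * e * a⁻¹ ∈ E := by
    intro a e ha he
    rw [hEeq] at he ⊢
    exact Subgroup.mem_inf.mpr ⟨normal_conj hD₁.2.1 hc₁ ha (Subgroup.mem_inf.mp he).1,
      normal_conj hD₂.2.1 hc₂ ha (Subgroup.mem_inf.mp he).2⟩
  rw [eq_bot_iff]
  intro e he
  rw [Subgroup.mem_bot]
  apply faithful_of_simple h22
  intro x
  apply smul_self_of_mem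
  by_cases hxP : x = P
  · rw [hxP]
    exact (Subgroup.mem_inf.mp he).1
  rcases relIndex_cases h22 P x hxP with h | h
  · exact (inf_le_right : (P : Subgroup S) ⊓ (x : Subgroup S) ≤ x)
      (hle (isLine_inf h (Ne.symm hxP)) inf_le_left he)
  · obtain ⟨a, ha, rfl⟩ := Z_single h22 hU hQ h
    rw [Sylow.coe_subgroup_smul, mem_conj_smul_iff]
    have h3 := hnormal (inv_mem ha) he
    rw [inv_inv] at h3
    exact (Subgroup.mem_inf.mp h3).2

/-- The final contradiction, with Sylow subgroups of order at least `9`. -/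
theorem case_nine [IsSimpleGroup S] (h22 : Nat.card (Sylow 3 S) = 22)
    (h9 : ∀ A : Sylow 3 S, 9 ≤ Nat.card (A : Subgroup S)) {t : S} (ht2 : t ^ 2 = 1)
    (hF : ({x | t • x = x} : Set (Sylow 3 S)).ncard = 2) {P : Sylow 3 S} (hP : t • P = P) : False := by
  classical
  have hU : ∀ A : Sylow 3 S, (U A).ncard = 12 := fun A => (card_U_twelve h22 h9 A).1
  have hN : t ∈ Subgroup.normalizer ((P : Subgroup S) : Set S) :=
    (Sylow.smul_eq_iff_mem_normalizer).mp hP
  have htinv : ∀ y : Sylow 3 S, t • t • y = y := by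
    intro y
    rw [smul_smul, ← pow_two, ht2, one_smul]
  -- a fixed point in `Z P`
  have hmod := ncard_modEq_fixed (X := Sylow 3 S) (p := 2) t ht2 (Z P) (by
    intro x hx
    have e : (x : Subgroup S).relIndex P = 9 := hx
    show ((t • x : Sylow 3 S) : Subgroup S).relIndex P = 9
    rw [relIndex_smul_of_mem P x hN, e])
  rw [card_Z_nine h22 hU P] at hmod
  have hne : ({x ∈ Z P | t • x = x} : Set (Sylow 3 S)).Nonempty := by
    rw [← Set.ncard_pos (Set.toFinite _)]
    unfold Nat.ModEq at hmod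
    omega
  obtain ⟨Q, hQZ, hQ⟩ := hne
  have hPQ : P ≠ Q := ne_of_mem_Z hQZ
  have hE := E_eq_bot h22 h9 hQZ
  -- exactly two fixed points
  set F : Set (Sylow 3 S) := {x | t • x = x} with hFdef
  have hFeq : ({P, Q} : Set (Sylow 3 S)) = F := by
    refine Set.eq_of_subset_of_ncard_le ?_ ?_ (Set.toFinite _)
    · rintro x (rfl | rfl)
      · exact hP
      · exact hQ
    · rw [Set.ncard_pair hPQ, hF]
  have hFmem : ∀ x, t • x = x → x = P ∨ x = Q := by
    intro x hx
    have : x ∈ ({P, Q} : Set (Sylow 3 S)) := by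
      rw [hFeq]; exact hx
    exact this
  -- the centralizer of `t` in `P` is trivial
  have hC : ∀ c ∈ (P : Subgroup S), t * c * t⁻¹ = c → c = 1 := by
    intro c hc hct
    have h1 : t • (c • Q) = c • Q := by
      have h2 : t * c = c * t := by
        calc t * c = (t * c * t⁻¹) * t := by group
          _ = c * t := by rw [hct]
      rw [smul_smul, h2, mul_smul, hQ]
    rcases hFmem _ h1 with h | h
    · exfalso
      apply hPQ
      have h3 : Q = c⁻¹ • (c • Q) := (inv_smul_smul _ _).symm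
      rw [h] at h3
      rw [h3]
      exact (smul_self_of_mem P (inv_mem hc)).symm
    · have h3 := mem_of_smul_eq P Q hc h
      have h4 : c ∈ (P : Subgroup S) ⊓ (Q : Subgroup S) := Subgroup.mem_inf.mpr ⟨hc, h3⟩
      rw [hE, Subgroup.mem_bot] at h4
      exact h4
  -- `t` inverts `P`
  let φ : (P : Subgroup S) →* (P : Subgroup S) :=
    { toFun := fun a => ⟨t * a * t⁻¹, (Subgroup.mem_normalizer_iff.mp hN _).mp a.2⟩
      map_one' := by
        apply Subtype.ext
        simp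
      map_mul' := by
        intro a b
        apply Subtype.ext
        show t * ((a : S) * b) * t⁻¹ = (t * a * t⁻¹) * (t * b * t⁻¹)
        group }
  have hφ : MonoidHom.FixedPointFree φ := by
    intro a ha
    apply Subtype.ext
    have h1 : t * (a : S) * t⁻¹ = a := congrArg Subtype.val ha
    exact hC a a.2 h1
  have hinvol : Function.Involutive φ := by
    intro a
    apply Subtype.ext
    show t * (t * (a : S) * t⁻¹) * t⁻¹ = a
    have htt : t * t = 1 := by rw [← pow_two, ht2]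
    have htt' : t⁻¹ * t⁻¹ = 1 := by rw [← mul_inv_rev, htt, inv_one]
    calc t * (t * (a : S) * t⁻¹) * t⁻¹ = (t * t) * a * (t⁻¹ * t⁻¹) := by
          simp only [mul_assoc]
      _ = a := by rw [htt, htt']; simp
  have hinv := hφ.coe_eq_inv_of_involutive hinvol
  have hinv' : ∀ a ∈ (P : Subgroup S), t * a * t⁻¹ = a⁻¹ := by
    intro a ha
    have := congrFun hinv ⟨a, ha⟩
    exact congrArg Subtype.val this
  -- a line through `P`
  have hX := (card_U_twelve h22 h9 P).2
  obtain ⟨D, hDl, hDP, hD4⟩ : (Xf 4 P).Nonempty := by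
    rw [← Set.ncard_pos (Set.toFinite _)]
    omega
  have hc := hDl.1 P
  have hPD : P ∈ Fl D := hDP
  have hinvD : ∀ x ∈ Fl D \ {P}, t • x ∈ Fl D \ {P} := by
    rintro x ⟨hx, hxP⟩
    refine ⟨?_, ?_⟩
    · intro d hd
      rw [Sylow.coe_subgroup_smul, mem_conj_smul_iff]
      apply hx
      have h1 : t⁻¹ * d * t = t * d * t⁻¹ := by
        have h2 : t⁻¹ = t := by
          rw [inv_eq_iff_mul_eq_one, ← pow_two, ht2]
        rw [h2]
      rw [h1, hinv' d (hDP hd)]
      exact inv_mem hd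
    · intro h
      apply hxP
      have h3 : x = t • (t • x) := (htinv x).symm
      rw [h, hP] at h3
      exact h3
  have hmod2 := ncard_modEq_fixed (X := Sylow 3 S) (p := 2) t ht2 (Fl D \ {P}) hinvD
  have h3 : (Fl D \ {P}).ncard = 3 := by
    have := ncard_Fl_sdiff hPD
    omega
  rw [h3] at hmod2
  have hne2 : ({x ∈ Fl D \ {P} | t • x = x} : Set (Sylow 3 S)).Nonempty := by
    rw [← Set.ncard_pos (Set.toFinite _)]
    unfold Nat.ModEq at hmod2
    omega
  obtain ⟨R, ⟨hRD, hRP⟩, hR⟩ := hne2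
  rcases hFmem R hR with h | h
  · exact hRP h
  · have hRU : R ∈ U P := relIndex_eq_three_of hc hDP hRD (fun h' => hRP h'.symm)
    have e1 : (R : Subgroup S).relIndex P = 3 := hRU
    rw [h] at e1
    have e2 : (Q : Subgroup S).relIndex P = 9 := hQZ
    omega

/-- No simple group has exactly `22` Sylow `3`-subgroups. -/
theorem no_simple [IsSimpleGroup S] (h22 : Nat.card (Sylow 3 S) = 22) : False := by
  classical
  obtain ⟨u, hu⟩ := exists_order_eleven h22
  obtain ⟨t, k, ht, htk, hk1, -⟩ := exists_involution h22 hu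
  have ht2 : t ^ 2 = 1 := by rw [← ht]; exact pow_orderOf_eq_one t
  have hle := ncard_fix_le_two h22 hu hk1 htk
  have h4 := Cfsg.Agent.Lib.SmallGroups3.card_modEq_fixedBy_four (not_comm h22)
    (X := Sylow 3 S) t ht2
  rw [h22, Nat.card_coe_set_eq] at h4
  have hF : ({x | t • x = x} : Set (Sylow 3 S)).ncard = 2 := by
    have e : (MulAction.fixedBy (Sylow 3 S) t : Set (Sylow 3 S)) = {x | t • x = x} := rfl
    rw [e] at h4
    unfold Nat.ModEq at h4
    omega
  obtain ⟨P, hP⟩ : ({x | t • x = x} : Set (Sylow 3 S)).Nonempty := by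
    rw [← Set.ncard_pos (Set.toFinite _)]
    omega
  by_cases h3 : Nat.card (P : Subgroup S) = 3
  · exact case_three h22 h3
  · apply case_nine h22 ?_ ht2 hF hP
    intro A
    rw [card_sylow_eq A P]
    obtain ⟨n, hn⟩ := IsPGroup.iff_card.mp P.isPGroup'
    have hn2 : 2 ≤ n := by
      by_contra hcon
      have : n = 0 ∨ n = 1 := by omega
      rcases this with rfl | rfl
      · -- trivial Sylow subgroups
        exfalso
        rw [pow_zero] at hn
        have h5 : (P : Subgroup S) = ⊥ := Subgroup.eq_bot_of_card_eq _ hn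
        obtain ⟨R, hR⟩ : ∃ R : Sylow 3 S, R ≠ P := by
          by_contra hc
          push Not at hc
          have hss : Subsingleton (Sylow 3 S) := ⟨fun a b => (hc a).trans (hc b).symm⟩
          have : Nat.card (Sylow 3 S) = 1 := Nat.card_of_subsingleton P
          omega
        rcases relIndex_cases h22 P R hR with h | h <;>
        · have h6 := Subgroup.relIndex_dvd_card (R : Subgroup S) (P : Subgroup S)
          rw [h, hn] at h6
          omega
      · exact h3 (by rw [hn]; norm_num)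
    rw [hn]
    calc 9 = 3 ^ 2 := by norm_num
      _ ≤ 3 ^ n := Nat.pow_le_pow_right (by norm_num) hn2

end Lines

end Cfsg.Agent.Lib.N22
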