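import Mathlib
import Cfsg.Agent.Lib.PComplement
import Cfsg.Agent.Lib.Coprime
import Cfsg.Agent.Lib.CoprimeInv
import Cfsg.Agent.Lib.Glauberman
import Cfsg.Agent.Lib.SuperSolv2

/-!
# Finite groups with a nilpotent maximal subgroup

* `hasNPC_of_class_two`: a Sylow `p`-subgroup `P` of class at most two, such that `p'`-elements
  normalizing a nontrivial normal subgroup of `P` centralize it, forces a normal `p`-complement.
* `isSolvable_of_coreFree`: a core-free nilpotent maximal subgroup such that all primes dividing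
  its order yield normal complements forces solvability.
-/

set_option autoImplicit false
set_option linter.style.haveILetI false

open Subgroup
open scoped commutatorElement

namespace Cfsg.Agent.Lib.NilpMax

universe u

variable {G : Type u} [Group G]

/-- A `p'`-element lifts to a `p'`-element through a surjection with `p`-group kernel. -/
theorem exists_lift_coprime {X Y : Type*} [Group X] [Finite X] [Group Y] {p : ℕ} [Fact p.Prime]
    (f : X →* Y) (hf : Function.Surjective f) (y : Y) (hy : Nat.Coprime (orderOf y) p) :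
    ∃ x : X, f x = y ∧ Nat.Coprime (orderOf x) p := by
  obtain ⟨x₀, rfl⟩ := hf y
  obtain ⟨a, b, hab, ha, hb, ⟨k, hak⟩, hbc⟩ := Cfsg.Agent.Lib.PComplement.exists_decomp p x₀
  refine ⟨b, ?_, hbc⟩
  -- `f a` is both a `p`-element and a `p'`-element
  have h1 : f a = 1 := by
    obtain ⟨n, rfl⟩ := ha
    have h2 : (f (x₀ ^ n)) ^ p ^ k = 1 := by
      rw [← map_pow]
      simpa using congrArg f hak
    have h3 : orderOf (f (x₀ ^ n)) ∣ p ^ k := orderOf_dvd_of_pow_eq_one h2
    have h4 : orderOf (f (x₀ ^ n)) ∣ orderOf (f x₀) := by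
      rw [map_zpow]
      exact orderOf_dvd_of_pow_eq_one (by
        rw [← zpow_natCast, zpow_comm, zpow_natCast, pow_orderOf_eq_one, one_zpow])
    have h5 : Nat.Coprime (orderOf (f (x₀ ^ n))) (p ^ k) :=
      Nat.Coprime.coprime_dvd_left h4 (Nat.Coprime.pow_right k hy)
    have h6 : orderOf (f (x₀ ^ n)) = 1 := Nat.Coprime.eq_one_of_dvd h5 h3
    exact orderOf_eq_one_iff.mp h6
  rw [hab, map_mul, h1, one_mul]

/-- The core of the class-two argument, inside the normalizer `L` of `H`. -/
theorem centralizer_core {L : Type u} [Group L] [Finite L] {p : ℕ} [Fact p.Prime]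
    (H Z : Subgroup L) [H.Normal] (hHp : IsPGroup p H) (hZc : Z ≤ centralizer (H : Set L))
    (hBp : IsPGroup p (H ⊔ Z : Subgroup L)) (hZH : ¬ Z ≤ H)
    (hmax : ∀ R : Subgroup L, IsPGroup p R → H < R → ∀ g ∈ normalizer (R : Set L),
      Nat.Coprime (orderOf g) p → g ∈ centralizer (R : Set L))
    (g : L) (hg : Nat.Coprime (orderOf g) p) : g ∈ centralizer (H : Set L) := by
  classical
  let π : L →* (L ⧸ H) := QuotientGroup.mk' H
  have hπs : Function.Surjective π := QuotientGroup.mk'_surjective H
  have hker : π.ker = H := QuotientGroup.ker_mk' H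
  have hkerp : IsPGroup p π.ker := by rw [hker]; exact hHp
  have lift : ∀ y : L ⧸ H, Nat.Coprime (orderOf y) p → ∃ x : L, π x = y ∧ Nat.Coprime (orderOf x) p :=
    fun y hy => exists_lift_coprime π hπs y hy
  -- Step 1: the quotient has a normal `p`-complement
  have hQ : Cfsg.HasNormalPComplement p (L ⧸ H) := by
    rw [Cfsg.Agent.Lib.PComplement.hasNormalPComplement_iff_forall]
    intro Qb hQb y hy hyc
    by_cases hbot : Qb = ⊥
    · subst hbot
      rw [mem_centralizer_iff]
      intro h hh
      have : h = 1 := hh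
      rw [this]; simp
    obtain ⟨x, rfl, hxc⟩ := lift y hyc
    set R := Qb.comap π with hR
    have hRp : IsPGroup p R := hQb.comap_of_ker_isPGroup π hkerp
    have hHR : H < R := by
      refine lt_of_le_of_ne ?_ ?_
      · intro h hh
        rw [hR, mem_comap]
        have : π h = 1 := by rw [← MonoidHom.mem_ker, hker]; exact hh
        rw [this]; exact one_mem _
      · intro heq
        apply hbot
        rw [eq_bot_iff]
        intro q hq
        obtain ⟨r, rfl⟩ := hπs q
        have h1 : r ∈ R := hq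
        rw [← heq, ← hker] at h1
        exact h1
    have hxn : x ∈ normalizer (R : Set L) := by
      rw [mem_normalizer_iff]
      intro r
      rw [hR]
      rw [mem_comap, mem_comap, map_mul, map_mul, map_inv]
      exact (mem_normalizer_iff.1 hy) (π r)
    have hxcR := hmax R hRp hHR x hxn hxc
    rw [mem_centralizer_iff] at hxcR ⊢
    intro q hq
    obtain ⟨r, rfl⟩ := hπs q
    have h2 := hxcR r hq
    rw [← map_mul, ← map_mul, h2]
  -- Step 2: the normal complement `K`
  obtain ⟨Ps, K, hKn, hcomp⟩ := hQ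
  have hKc : Nat.Coprime (Nat.card K) p := by
    have h1 : (Ps : Subgroup (L ⧸ H)).index = Nat.card K := hcomp.index_eq_card
    rw [← h1]
    have := Ps.not_dvd_index
    exact ((Nat.Prime.coprime_iff_not_dvd Fact.out).2 this).symm
  set B : Subgroup L := H ⊔ Z with hB
  set Bb : Subgroup (L ⧸ H) := B.map π with hBb
  have hBbp : IsPGroup p Bb := hBp.map π
  set C : Subgroup L := centralizer (H : Set L) with hC
  have hCn : C.Normal := inferInstance
  have hCbn : (C.map π).Normal := hCn.map π hπs
  have hHC : H.map π = ⊥ := by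
    rw [eq_bot_iff]
    rintro _ ⟨h, hh, rfl⟩
    have : π h = 1 := by rw [← MonoidHom.mem_ker, hker]; exact hh
    rw [this]; exact one_mem _
  have hBbC : Bb ≤ C.map π := by
    rw [hBb, hB, Subgroup.map_sup, hHC, bot_sup_eq]
    exact map_mono hZc
  have hcop : Nat.Coprime (Nat.card Bb) (Nat.card K) := by
    obtain ⟨n, hn⟩ := IsPGroup.iff_card.1 hBbp
    rw [hn]
    exact Nat.Coprime.pow_left n hKc.symm
  have hBbn : Bb ≤ normalizer (K : Set (L ⧸ H)) := by
    rw [normalizer_eq_top_iff.2 hKn]; exact le_top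
  have hBbs : Group.IsSolvable Bb := by
    haveI := hBbp.isNilpotent
    infer_instance
  -- Step 3: `K` lies in the image of the centralizer
  have hKC : K ≤ C.map π := by
    intro k hk
    obtain ⟨n, hn, hnk⟩ := Cfsg.Agent.Lib.Glauberman.exists_commutator_mul_centralizer hBbn hcop
      (Or.inl hBbs) k hk
    have hn1 : n ∈ C.map π := by
      have h1 : (⁅K, Bb⁆ : Subgroup (L ⧸ H)) ≤ C.map π := by
        rw [Subgroup.commutator_le]
        intro a _ b hb
        rw [commutatorElement_def]
        exact mul_mem (hCbn.conj_mem _ (hBbC hb) _) (inv_mem (hBbC hb))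
      exact h1 hn
    have hnK : n ∈ K := Cfsg.Agent.Lib.Glauberman.commutator_le_of_le_normalizer hBbn hn
    have hn2 : n * k ∈ C.map π := by
      have hyK : n * k ∈ K := mul_mem hnK hk
      have hyc : Nat.Coprime (orderOf (n * k)) p :=
        Nat.Coprime.coprime_dvd_left (Subgroup.orderOf_dvd_natCard K hyK) hKc
      obtain ⟨x, hx, hxc⟩ := lift _ hyc
      -- `x` normalizes `B`
      have hxB' : ∀ (u : L), π u = n * k → ∀ b ∈ B, u * b * u⁻¹ ∈ B := by
        intro u hu b hb
        have h1 : π (u * b * u⁻¹) = π b := by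
          rw [map_mul, map_mul, map_inv, hu]
          have h2 : π b ∈ Bb := ⟨b, hb, rfl⟩
          have h3 := (mem_centralizer_iff.1 hnk) (π b) h2
          rw [← h3]; group
        have h4 : (u * b * u⁻¹) * b⁻¹ ∈ H := by
          rw [← hker, MonoidHom.mem_ker, map_mul, h1, map_inv]; group
        have h5 : (u * b * u⁻¹) = ((u * b * u⁻¹) * b⁻¹) * b := by group
        rw [h5]
        exact mul_mem (Subgroup.mem_sup_left h4) hb
      have hxn : x ∈ normalizer (B : Set L) := by
        rw [mem_normalizer_iff]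
        intro b
        refine ⟨hxB' x hx b, fun hb => ?_⟩
        -- use finiteness: conjugation by `x` is a bijection of the finite set `B`
        have h1 : ∀ m : ℕ, ∀ c ∈ B, x ^ m * c * (x ^ m)⁻¹ ∈ B := by
          intro m
          induction m with
          | zero => intro c hc; simpa using hc
          | succ m ih =>
            intro c hc
            have h2 := hxB' x hx _ (ih c hc)
            have h3 : x ^ (m + 1) * c * (x ^ (m + 1))⁻¹ = x * (x ^ m * c * (x ^ m)⁻¹) * x⁻¹ := by
              rw [pow_succ']; group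
            rw [h3]; exact h2
        have h2 := h1 (orderOf x - 1) _ hb
        have h3 : x ^ (orderOf x - 1) * x = 1 := by
          rw [← pow_succ, Nat.sub_add_cancel (orderOf_pos x), pow_orderOf_eq_one]
        have h4 : x ^ (orderOf x - 1) = x⁻¹ := eq_inv_of_mul_eq_one_left h3
        rw [h4] at h2
        have h5 : x⁻¹ * (x * b * x⁻¹) * x⁻¹⁻¹ = b := by group
        rwa [h5] at h2
      have hHB : H < B := by
        refine lt_of_le_of_ne le_sup_left ?_
        intro heq
        apply hZH
        rw [heq]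
        exact le_sup_right
      have hxc' := hmax B hBp hHB x hxn hxc
      have hxC : x ∈ C := by
        rw [hC, mem_centralizer_iff]
        intro h hh
        exact (mem_centralizer_iff.1 hxc') h (Subgroup.mem_sup_left hh)
      exact ⟨x, hxC, hx⟩
    have h1 : k = n⁻¹ * (n * k) := by group
    rw [h1]
    exact mul_mem (inv_mem hn1) hn2
  -- Step 4: the image of `g` lies in `K`
  have hgK : π g ∈ K := by
    have h1 := Subgroup.pow_index_mem K (π g)
    have h2 : K.index = Nat.card Ps := hcomp.symm.index_eq_card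
    obtain ⟨n, hn⟩ := IsPGroup.iff_card.1 Ps.isPGroup'
    rw [h2] at h1
    have h3 : Nat.Coprime (Nat.card Ps) (orderOf (π g)) := by
      rw [hn]
      exact Nat.Coprime.pow_left n
        (Nat.Coprime.coprime_dvd_left (orderOf_map_dvd π g) hg).symm
    obtain ⟨m, hm⟩ := exists_pow_eq_self_of_coprime h3
    rw [← hm]
    exact pow_mem h1 m
  obtain ⟨c, hcC, hc⟩ := hKC hgK
  -- Step 5: `g = c h`
  set h := c⁻¹ * g with hh
  have hhH : h ∈ H := by
    rw [← hker, MonoidHom.mem_ker, hh, map_mul, map_inv, hc]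
    group
  have hgch : g = c * h := by rw [hh]; group
  have hcomm : Commute c h := by
    have := (mem_centralizer_iff.1 hcC) h hhH
    exact this.symm
  obtain ⟨k, hk⟩ := hHp ⟨h, hhH⟩
  have hk' : h ^ p ^ k = 1 := by
    have := congrArg Subtype.val hk
    simpa using this
  have hgp : g ^ p ^ k ∈ C := by
    rw [hgch, hcomm.mul_pow, hk', mul_one]
    exact pow_mem hcC _
  have h3 : Nat.Coprime (p ^ k) (orderOf g) := Nat.Coprime.pow_left k hg.symm
  obtain ⟨m, hm⟩ := exists_pow_eq_self_of_coprime h3
  rw [← hm]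
  exact pow_mem hgp m

/-- **Class two normal `p`-complement criterion.** -/
theorem hasNPC_of_class_two [Finite G] {p : ℕ} [Fact p.Prime] (P : Sylow p G)
    (hcl : ∀ x ∈ (P : Subgroup G), ∀ y ∈ (P : Subgroup G), ∀ z ∈ (P : Subgroup G), ⁅⁅x, y⁆, z⁆ = 1)
    (hN : ∀ H : Subgroup G, H ≤ P → H ≠ ⊥ → (P : Subgroup G) ≤ normalizer (H : Set G) →
      ∀ g ∈ normalizer (H : Set G), Nat.Coprime (orderOf g) p → g ∈ centralizer (H : Set G)) :
    Cfsg.HasNormalPComplement p G := by
  classical
  rw [Cfsg.Agent.Lib.PComplement.hasNormalPComplement_iff_forall]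
  by_contra hcon
  push Not at hcon
  obtain ⟨Q₀, hQ₀, g₀, hg₀, hg₀c, hg₀n⟩ := hcon
  let 𝓧 : Set (Subgroup G) := {H | IsPGroup p H ∧ ∃ g ∈ normalizer (H : Set G),
    Nat.Coprime (orderOf g) p ∧ g ∉ centralizer (H : Set G)}
  obtain ⟨H₀, hH₀, hmaxc⟩ := Set.exists_max_image 𝓧 (fun H => Nat.card H) 𝓧.toFinite
    ⟨Q₀, hQ₀, g₀, hg₀, hg₀c, hg₀n⟩
  obtain ⟨hH₀p, g₁, hg₁, hg₁c, hg₁n⟩ := hH₀
  -- conjugate into `P`
  obtain ⟨P₁, hP₁⟩ := hH₀p.exists_le_sylow
  obtain ⟨x, hx⟩ := MulAction.exists_smul_eq G P₁ P
  set H : Subgroup G := H₀.map (MulAut.conj x).toMonoidHom with hH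
  have hmemH : ∀ y, y ∈ H ↔ x⁻¹ * y * x ∈ H₀ := by
    intro y
    rw [hH]
    constructor
    · rintro ⟨h, hh, rfl⟩
      simpa [mul_assoc] using hh
    · intro hy
      exact ⟨_, hy, by simp [mul_assoc]⟩
  have hHcard : Nat.card H = Nat.card H₀ :=
    Subgroup.card_map_of_injective (MulAut.conj x).injective
  have hHP : H ≤ P := by
    rw [← hx]
    rintro _ ⟨h, hh, rfl⟩
    have h1 : h ∈ (P₁ : Subgroup G) := hP₁ hh
    exact Subgroup.mem_map_of_mem _ h1
  have hHp : IsPGroup p H := P.isPGroup'.to_le hHP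
  set g : G := x * g₁ * x⁻¹ with hg
  have hgc : Nat.Coprime (orderOf g) p := by
    have h1 : g = (MulAut.conj x).toMonoidHom g₁ := rfl
    rw [h1, orderOf_injective _ (MulAut.conj x).injective]
    exact hg₁c
  have hgn : g ∈ normalizer (H : Set G) := by
    rw [mem_normalizer_iff]
    intro y
    rw [hmemH, hmemH]
    have h1 : x⁻¹ * (g * y * g⁻¹) * x = g₁ * (x⁻¹ * y * x) * g₁⁻¹ := by
      rw [hg]; group
    rw [h1]
    exact (mem_normalizer_iff.1 hg₁) _
  have hgnc : g ∉ centralizer (H : Set G) := by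
    intro h1
    apply hg₁n
    rw [mem_centralizer_iff] at h1 ⊢
    intro h hh
    have h2 : x * h * x⁻¹ ∈ H := (hmemH _).2 (by simpa [mul_assoc] using hh)
    have h3 := h1 _ h2
    rw [hg] at h3
    have h4 : x * h * x⁻¹ * (x * g₁ * x⁻¹) = x * (h * g₁) * x⁻¹ := by group
    have h5 : x * g₁ * x⁻¹ * (x * h * x⁻¹) = x * (g₁ * h) * x⁻¹ := by group
    rw [h4, h5] at h3
    have h6 := mul_left_cancel (mul_right_cancel h3)
    exact h6
  have hHbot : H ≠ ⊥ := by
    intro h1
    apply hgnc
    rw [h1, mem_centralizer_iff]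
    intro h hh
    have : h = 1 := hh
    rw [this]; simp
  -- the maximality
  have hmax : ∀ R : Subgroup G, IsPGroup p R → Nat.card H < Nat.card R →
      ∀ y ∈ normalizer (R : Set G), Nat.Coprime (orderOf y) p → y ∈ centralizer (R : Set G) := by
    intro R hRp hRc y hy hyc
    by_contra hyn
    have h1 : Nat.card R ≤ Nat.card H₀ := hmaxc R ⟨hRp, y, hy, hyc, hyn⟩
    omega
  set Z : Subgroup G := (P : Subgroup G) ⊓ centralizer ((P : Subgroup G) : Set G) with hZ
  by_cases hZH : Z ≤ H
  · -- `H` is normal in `P`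
    have hPn : (P : Subgroup G) ≤ normalizer (H : Set G) := by
      intro y hy
      rw [mem_normalizer_iff]
      have hstep : ∀ u ∈ (P : Subgroup G), ∀ h ∈ H, u * h * u⁻¹ ∈ H := by
        intro u hu h hh
        have h1 : ⁅u, h⁆ ∈ Z := by
          rw [hZ, Subgroup.mem_inf]
          refine ⟨?_, ?_⟩
          · rw [commutatorElement_def]
            exact mul_mem (mul_mem (mul_mem hu (hHP hh)) (inv_mem hu)) (inv_mem (hHP hh))
          · rw [mem_centralizer_iff]
            intro z hz
            have h2 := hcl u hu h (hHP hh) z hz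
            rw [commutatorElement_eq_one_iff_mul_comm] at h2
            exact h2.symm
        have h3 : u * h * u⁻¹ = ⁅u, h⁆ * h := by
          rw [commutatorElement_def]; group
        rw [h3]
        exact mul_mem (hZH h1) hh
      intro h
      refine ⟨hstep y hy h, fun hh => ?_⟩
      have h1 := hstep y⁻¹ (inv_mem hy) _ hh
      have h2 : y⁻¹ * (y * h * y⁻¹) * y⁻¹⁻¹ = h := by group
      rwa [h2] at h1
    exact hgnc (hN H hHP hHbot hPn g hgn hgc)
  · -- apply the core lemma in the normalizer
    let L : Subgroup G := normalizer (H : Set G)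
    have hHL : H ≤ L := le_normalizer
    haveI hHn : (H.subgroupOf L).Normal :=
      (Subgroup.normal_subgroupOf_iff_le_normalizer hHL).mpr le_rfl
    have hZL : Z ≤ L := by
      intro z hz
      rw [mem_normalizer_iff]
      intro h
      have hstep : ∀ u ∈ Z, ∀ a ∈ H, u * a * u⁻¹ = a := by
        intro u hu a ha
        have h1 := (mem_centralizer_iff.1 hu.2) a (hHP ha)
        rw [← h1]; simp
      constructor
      · intro hh
        rw [hstep z hz h hh]
        exact hh
      · intro hh
        have h1 := hstep z⁻¹ (inv_mem hz) _ hh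
        have h2 : z⁻¹ * (z * h * z⁻¹) * z⁻¹⁻¹ = h := by group
        rw [h2] at h1
        rw [h1]
        exact hh
    have hres := centralizer_core (L := L) (H.subgroupOf L) (Z.subgroupOf L)
      hHp.comap_subtype
      (by
        intro z hz
        rw [mem_centralizer_iff]
        intro h hh
        have hh' : ((h : L) : G) ∈ H := hh
        have hz' : ((z : L) : G) ∈ Z := hz
        have := (mem_centralizer_iff.1 hz'.2) _ (hHP hh')
        exact Subtype.ext this)
      (by
        have h1 : (H.subgroupOf L ⊔ Z.subgroupOf L : Subgroup L) ≤ (P : Subgroup G).subgroupOf L := by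
          apply sup_le
          · intro h hh; exact hHP hh
          · intro z hz; exact hz.1
        exact (P.isPGroup'.comap_subtype).to_le h1)
      (by
        intro h1
        apply hZH
        intro z hz
        exact h1 (show (⟨z, hZL hz⟩ : L) ∈ Z.subgroupOf L from hz))
      (by
        intro R hRp hHR y hy hyc
        set R' : Subgroup G := R.map L.subtype with hR'
        have hR'p : IsPGroup p R' := hRp.map _
        have hcard : Nat.card H < Nat.card R' := by
          have h1 : Nat.card R' = Nat.card R :=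
            Subgroup.card_map_of_injective L.subtype_injective
          rw [h1]
          have h2 : Nat.card (H.subgroupOf L) = Nat.card H :=
            Cfsg.Agent.Lib.CoprimeInv.card_subgroupOf_of_le hHL
          rw [← h2]
          exact Cfsg.Agent.Lib.PComplement.card_lt_of_lt' hHR
        have hyn : (y : G) ∈ normalizer (R' : Set G) := by
          rw [mem_normalizer_iff]
          intro a
          constructor
          · rintro ⟨r, hr, rfl⟩
            exact ⟨y * r * y⁻¹, (mem_normalizer_iff.1 hy r).1 hr, by simp⟩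
          · rintro ⟨r, hr, hra⟩
            have h1 : (y⁻¹ * r * y⁻¹⁻¹ : L) ∈ R := by
              have h2 := (mem_normalizer_iff.1 (inv_mem hy) r).1 hr
              exact h2
            refine ⟨_, h1, ?_⟩
            have h3 : ((r : L) : G) = y * a * (y : G)⁻¹ := hra
            simp only [coe_subtype, Subgroup.coe_mul, Subgroup.coe_inv, inv_inv, h3]
            group
        have h2 := hmax R' hR'p hcard y hyn (by rwa [Subgroup.orderOf_coe])
        rw [mem_centralizer_iff] at h2 ⊢
        intro r hr
        exact Subtype.ext (h2 r ⟨r, hr, rfl⟩))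
      ⟨g, hgn⟩ (by rwa [Subgroup.orderOf_mk])
    apply hgnc
    rw [mem_centralizer_iff] at hres ⊢
    intro h hh
    have := hres ⟨h, hHL hh⟩ hh
    exact congrArg Subtype.val this

/-- The final step of the solvability argument: a nilpotent maximal subgroup `M` with all relevant
normal complements. -/
theorem isSolvable_of_coreFree [Finite G] (M : Subgroup G) (hmax : IsCoatom M)
    (hnil : Group.IsNilpotent M)
    (h : ∀ p : ℕ, p.Prime → p ∣ Nat.card M → Cfsg.HasNormalPComplement p G) :
    Group.IsSolvable G := by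
  classical
  -- choose normal complements
  let I := {p : ℕ // p.Prime ∧ p ∣ Nat.card M}
  haveI : Finite I := by
    have hpos : 0 < Nat.card M := Nat.card_pos
    exact Set.Finite.to_subtype ((Set.finite_le_nat (Nat.card M)).subset
      (fun p hp => Nat.le_of_dvd hpos hp.2))
  have hex : ∀ p : I, ∃ N : Subgroup G, N.Normal ∧ Nat.Coprime (Nat.card N) p.1 ∧
      ∃ n : ℕ, N.index = p.1 ^ n := by
    intro p
    haveI : Fact p.1.Prime := ⟨p.2.1⟩
    obtain ⟨P, N, hN, hc⟩ := h p.1 p.2.1 p.2.2
    refine ⟨N, hN, ?_, ?_⟩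
    · have h1 : (P : Subgroup G).index = Nat.card N := hc.index_eq_card
      rw [← h1]
      exact ((Nat.Prime.coprime_iff_not_dvd p.2.1).2 P.not_dvd_index).symm
    · have h2 : N.index = Nat.card P := hc.symm.index_eq_card
      obtain ⟨n, hn⟩ := IsPGroup.iff_card.1 P.isPGroup'
      exact ⟨n, by rw [h2, hn]⟩
  choose N hNn hNc hNp using hex
  haveI : ∀ p : I, (N p).Normal := hNn
  let f : G →* ∀ p : I, G ⧸ N p := MonoidHom.pi (fun p => QuotientGroup.mk' (N p))
  have hfk : ∀ x, x ∈ f.ker ↔ ∀ p, x ∈ N p := by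
    intro x
    rw [MonoidHom.mem_ker]
    constructor
    · intro hx p
      have h1 : f x p = 1 := by rw [hx]; rfl
      exact (QuotientGroup.eq_one_iff x).1 h1
    · intro hx
      funext p
      exact (QuotientGroup.eq_one_iff x).2 (hx p)
  haveI hPi : Group.IsSolvable (∀ p : I, G ⧸ N p) := by
    haveI : ∀ p : I, Fact p.1.Prime := fun p => ⟨p.2.1⟩
    haveI : ∀ p : I, Group.IsNilpotent (G ⧸ N p) := fun p => by
      obtain ⟨n, hn⟩ := hNp p
      exact (IsPGroup.of_card (p := p.1) (n := n) hn).isNilpotent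
    infer_instance
  set K : Subgroup G := f.ker with hK
  haveI hKn : K.Normal := MonoidHom.normal_ker f
  haveI hKq : Group.IsSolvable (G ⧸ K) :=
    Group.isSolvable_of_isSolvable_injective (QuotientGroup.kerLift_injective f)
  have hcop : Nat.Coprime (Nat.card K) (Nat.card M) := by
    apply Nat.Coprime.symm
    apply Nat.coprime_of_dvd
    intro q hq hqM hqK
    let q' : I := ⟨q, hq, hqM⟩
    have h1 : K ≤ N q' := fun x hx => (hfk x).1 hx q'
    have h2 : q ∣ Nat.card (N q') := hqK.trans (Subgroup.card_dvd_of_le h1)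
    have h3 := hNc q'
    exact (Nat.Prime.coprime_iff_not_dvd hq).1 h3.symm h2
  -- it suffices that `K` is solvable
  suffices hKs : Group.IsSolvable K by
    exact Group.isSolvable_of_ker_le_range K.subtype f (by rw [range_subtype])
  by_cases hKb : K = ⊥
  · rw [hKb]; infer_instance
  have hKc : Nat.card K ≠ 1 := by
    intro h1
    exact hKb (Subgroup.card_eq_one.mp h1)
  obtain ⟨r, hr, hrK⟩ := Nat.exists_prime_and_dvd hKc
  haveI : Fact r.Prime := ⟨hr⟩
  have hdisj : M ⊓ K = ⊥ := Cfsg.Agent.Lib.CoprimeInv.inf_eq_bot_of_coprime' hcop.symm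
  have hKM : ¬ K ≤ M := by
    intro h1
    apply hKb
    have h2 : K ≤ M ⊓ K := le_inf h1 le_rfl
    rw [hdisj] at h2
    exact le_bot_iff.1 h2
  have hsup : M ⊔ K = ⊤ := by
    apply hmax.2
    exact lt_of_le_of_ne le_sup_left (fun h1 => hKM (by rw [h1]; exact le_sup_right))
  have hcompl : IsComplement' K M := Cfsg.Agent.Lib.SuperSolv2.isComplement'_of_normal
    (by rw [inf_comm]; exact hdisj) (by rw [sup_comm]; exact hsup)
  have hidx : K.index = Nat.card M := hcompl.symm.index_eq_card
  obtain ⟨R⟩ : Nonempty (Sylow r K) := inferInstance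
  have hRb : (R : Subgroup K) ≠ ⊥ := R.ne_bot_of_dvd_card hrK
  let R₀ : Subgroup G := (R : Subgroup K).map K.subtype
  have hFr : normalizer ((R₀ : Subgroup G) : Set G) ⊔ K = ⊤ := Sylow.normalizer_sup_eq_top R
  set X : Subgroup G := normalizer ((R₀ : Subgroup G) : Set G) with hX
  have hidx2 : (K.subgroupOf X).index = K.index := by
    have h1 : K.relIndex (K ⊔ X) = K.relIndex X := Subgroup.relIndex_sup_left X K
    rw [sup_comm, hFr, Subgroup.relIndex_top_right] at h1
    exact h1.symm
  have hcardK' : Nat.Coprime (Nat.card (K.subgroupOf X)) (K.subgroupOf X).index := by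
    rw [hidx2, hidx]
    refine Nat.Coprime.coprime_dvd_left ?_ hcop
    have h1 : Nat.card (K.subgroupOf X) = Nat.card (K ⊓ X : Subgroup G) := by
      rw [← Subgroup.inf_subgroupOf_right K X]
      exact Cfsg.Agent.Lib.CoprimeInv.card_subgroupOf_of_le inf_le_right
    rw [h1]
    exact Subgroup.card_dvd_of_le inf_le_left
  obtain ⟨W, hW⟩ := Subgroup.exists_right_complement'_of_coprime hcardK'
  let M₁ : Subgroup G := W.map X.subtype
  have hM₁c : Nat.card M₁ = K.index := by
    have h1 : Nat.card M₁ = Nat.card W := Subgroup.card_map_of_injective X.subtype_injective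
    rw [h1, ← hidx2]
    exact hW.symm.index_eq_card.symm
  obtain ⟨g, hg⟩ := Cfsg.Agent.Lib.Coprime.sz_conj_of_card K (by rw [hidx]; exact hcop)
    (Or.inr hKq) M₁ M hM₁c hidx.symm
  let R' : Subgroup G := Cfsg.Agent.Lib.CoprimeInv.cj R₀ g
  have hM₁X : M₁ ≤ X := Subgroup.map_subtype_le W
  have hgM : Cfsg.Agent.Lib.CoprimeInv.cj M₁ g = M := by
    rw [← hg]
    ext y
    rw [Subgroup.mem_smul_pointwise_iff_exists]
    rfl
  have hMn : M ≤ normalizer (R' : Set G) := by
    rw [← hgM]
    exact Cfsg.Agent.Lib.CoprimeInv.normalizer_cj_of_le hM₁X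
  have hR₀K : R₀ ≤ K := Subgroup.map_subtype_le _
  have hR'K : R' ≤ K := by
    rintro _ ⟨a, ha, rfl⟩
    exact hKn.conj_mem a (hR₀K ha) g
  have hcardR' : Nat.card R' = Nat.card R₀ := Cfsg.Agent.Lib.CoprimeInv.card_cj R₀ g
  have hcardR₀ : Nat.card R₀ = Nat.card (R : Subgroup K) :=
    Subgroup.card_map_of_injective K.subtype_injective
  have hR'b : R' ≠ ⊥ := by
    intro h1
    apply hRb
    have h2 : Nat.card R' = 1 := by rw [h1]; simp
    rw [hcardR', hcardR₀] at h2
    exact Subgroup.card_eq_one.mp h2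
  have hinf : M ⊓ R' = ⊥ := by
    rw [eq_bot_iff, ← hdisj]
    exact inf_le_inf_left M hR'K
  have hR'M : ¬ R' ≤ M := by
    intro h1
    apply hR'b
    have h2 : R' ≤ M ⊓ R' := le_inf h1 le_rfl
    rw [hinf] at h2
    exact le_bot_iff.1 h2
  have hsup2 : M ⊔ R' = ⊤ := by
    apply hmax.2
    exact lt_of_le_of_ne le_sup_left (fun h1 => hR'M (by rw [h1]; exact le_sup_right))
  have h3 := Cfsg.Agent.Lib.CoprimeInv.card_sup_mul_card_inf hMn
  rw [hsup2, hinf, Subgroup.card_top, Subgroup.card_bot, mul_one] at h3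
  have h4 : Nat.card K * K.index = Nat.card G := Subgroup.card_mul_index K
  rw [hidx] at h4
  have hKR : R' = K := by
    apply Subgroup.eq_of_le_of_card_ge hR'K
    have h5 : Nat.card K * Nat.card M = Nat.card R' * Nat.card M := by
      rw [h4, h3, mul_comm]
    exact (Nat.eq_of_mul_eq_mul_right Nat.card_pos h5).le
  have hKp : IsPGroup r K := by
    rw [← hKR]
    exact ((R.isPGroup').map K.subtype).map _
  haveI := hKp.isNilpotent
  infer_instance

/-- The general induction: reduce to the core-free case. -/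
theorem isSolvable_of_nilpotent_maximal
    (Φ : ∀ (X : Type u) [Group X] [Finite X], Subgroup X → Prop)
    (hq : ∀ (X : Type u) [Group X] [Finite X] (M N : Subgroup X) [N.Normal], N ≤ M → Φ X M →
      Φ (X ⧸ N) (M.map (QuotientGroup.mk' N)))
    (hcf : ∀ (X : Type u) [Group X] [Finite X] (M : Subgroup X), IsCoatom M → Group.IsNilpotent M →
      M.normalCore = ⊥ → Φ X M →
      ∀ p : ℕ, p.Prime → p ∣ Nat.card M → Cfsg.HasNormalPComplement p X) :
    ∀ (n : ℕ) (G : Type u) [Group G] [Finite G] (M : Subgroup G), Nat.card G = n → IsCoatom M →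
      Group.IsNilpotent M → Φ G M → Group.IsSolvable G := by
  intro n
  induction n using Nat.strong_induction_on with
  | _ n ih =>
  intro G _ _ M hn hmax hnil hΦ
  by_cases hcore : M.normalCore = ⊥
  · exact isSolvable_of_coreFree M hmax hnil (hcf G M hmax hnil hcore hΦ)
  · set N := M.normalCore with hN
    haveI hNn : N.Normal := Subgroup.normalCore_normal M
    have hNM : N ≤ M := Subgroup.normalCore_le M
    have h1 : Nat.card (G ⧸ N) < n := by
      have h2 := Subgroup.card_mul_index N
      have h3 : 1 < Nat.card N := (Subgroup.one_lt_card_iff_ne_bot N).2 hcore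
      have h4 : Nat.card (G ⧸ N) = N.index := rfl
      have h5 : 0 < N.index := Nat.pos_of_ne_zero (Subgroup.index_ne_zero_of_finite)
      rw [h4, ← hn, ← h2]
      nlinarith
    have hnilq : Group.IsNilpotent (M.map (QuotientGroup.mk' N)) :=
      Group.nilpotent_of_surjective ((QuotientGroup.mk' N).subgroupMap M)
        ((QuotientGroup.mk' N).subgroupMap_surjective M)
    haveI hsq : Group.IsSolvable (G ⧸ N) := ih _ h1 (G ⧸ N) (M.map (QuotientGroup.mk' N)) rfl
      (Cfsg.Agent.Lib.SuperSolv2.isCoatom_map_mk hmax hNM) hnilq (hq G M N hNM hΦ)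
    haveI hsN : Group.IsSolvable N :=
      Group.isSolvable_of_isSolvable_injective (f := Subgroup.inclusion hNM)
        (Subgroup.inclusion_injective hNM)
    exact Group.isSolvable_of_ker_le_range N.subtype (QuotientGroup.mk' N)
      (by rw [range_subtype, QuotientGroup.ker_mk'])

/-- For a core-free maximal subgroup `M`, subgroups of `M` normalized by `M` have normalizer `M`. -/
theorem normalizer_eq_of_coreFree {M A : Subgroup G} (hmax : IsCoatom M)
    (hcore : M.normalCore = ⊥) (hAM : A ≤ M) (hAb : A ≠ ⊥) (hMA : M ≤ normalizer (A : Set G)) :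
    normalizer (A : Set G) = M := by
  by_contra hne
  have h1 : M < normalizer (A : Set G) := lt_of_le_of_ne hMA (Ne.symm hne)
  have h2 := hmax.2 _ h1
  have h3 : A.Normal := normalizer_eq_top_iff.1 h2
  have h4 : A ≤ M.normalCore := Subgroup.normal_le_normalCore.2 hAM
  rw [hcore] at h4
  exact hAb (le_bot_iff.1 h4)

/-- A core-free nilpotent maximal subgroup contains Sylow subgroups of the whole group. -/
theorem exists_sylow_of_coreFree [Finite G] {M : Subgroup G} (hmax : IsCoatom M)
    (hnil : Group.IsNilpotent M) (hcore : M.normalCore = ⊥) {p : ℕ} [Fact p.Prime]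
    (hp : p ∣ Nat.card M) :
    ∃ P : Sylow p G, (P : Subgroup G) ≤ M ∧ (P : Subgroup G) ≠ ⊥ ∧
      M ≤ normalizer ((P : Subgroup G) : Set G) := by
  classical
  obtain ⟨S⟩ : Nonempty (Sylow p M) := inferInstance
  have hSn : (S : Subgroup M).Normal :=
    ((Group.isNilpotent_of_finite_tfae (G := M)).out 0 3 rfl rfl).1 hnil p inferInstance S
  set S₀ : Subgroup G := (S : Subgroup M).map M.subtype with hS₀
  have hS₀M : S₀ ≤ M := Subgroup.map_subtype_le _
  have hS₀b : S₀ ≠ ⊥ := by
    intro h1
    have h2 : Nat.card S₀ = 1 := by rw [h1]; simp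
    have h3 : Nat.card S₀ = Nat.card (S : Subgroup M) :=
      Subgroup.card_map_of_injective M.subtype_injective
    rw [h3] at h2
    exact S.ne_bot_of_dvd_card hp (Subgroup.card_eq_one.mp h2)
  have hMS₀ : M ≤ normalizer (S₀ : Set G) := by
    intro m hm
    rw [mem_normalizer_iff]
    have hstep : ∀ u (hu : u ∈ M), ∀ a ∈ S₀, u * a * u⁻¹ ∈ S₀ := by
      rintro u hu _ ⟨a, ha, rfl⟩
      exact ⟨(⟨u, hu⟩ : M) * a * (⟨u, hu⟩ : M)⁻¹, hSn.conj_mem a ha _, by simp⟩
    intro a
    refine ⟨hstep m hm a, fun ha => ?_⟩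
    have h1 := hstep m⁻¹ (inv_mem hm) _ ha
    have h2 : m⁻¹ * (m * a * m⁻¹) * m⁻¹⁻¹ = a := by group
    rwa [h2] at h1
  have hnorm := normalizer_eq_of_coreFree hmax hcore hS₀M hS₀b hMS₀
  have hS₀p : IsPGroup p S₀ := S.isPGroup'.map _
  obtain ⟨P, hP⟩ := hS₀p.exists_le_sylow
  have heq : S₀ = P := by
    by_contra hne
    have hlt : S₀ < P := lt_of_le_of_ne hP hne
    -- the normalizer condition in `P`
    haveI := P.isPGroup'.isNilpotent
    have h1 : S₀.subgroupOf P < ⊤ := by
      refine lt_top_iff_ne_top.2 (fun h2 => hne (le_antisymm hP ?_))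
      intro x hx
      have h3 : (⟨x, hx⟩ : (P : Subgroup G)) ∈ S₀.subgroupOf P := by rw [h2]; trivial
      exact h3
    have h2 := (Group.normalizerCondition_of_isNilpotent (G := (P : Subgroup G))) _ h1
    obtain ⟨x, hx, hx2⟩ := SetLike.exists_of_lt h2
    have hxn : (x : G) ∈ normalizer (S₀ : Set G) := by
      rw [mem_normalizer_iff]
      intro a
      constructor
      · intro ha
        have h3 := (mem_normalizer_iff.1 hx) ⟨a, hP ha⟩
        exact (h3.1 ha)
      · intro ha
        have h4 : a ∈ (P : Subgroup G) := by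
          have h5 : (x : G) * a * (x : G)⁻¹ ∈ (P : Subgroup G) := hP ha
          have h6 := (P : Subgroup G).mul_mem ((P : Subgroup G).mul_mem (inv_mem x.2) h5) x.2
          have h7 : (x : G)⁻¹ * ((x : G) * a * (x : G)⁻¹) * x = a := by group
          rwa [h7] at h6
        have h3 := (mem_normalizer_iff.1 hx) ⟨a, h4⟩
        exact (h3.2 ha)
    have hxM : (x : G) ∈ M := by rw [← hnorm]; exact hxn
    -- maximality of `S`
    have hmaxS : (P : Subgroup G).subgroupOf M = S := by
      have hpg : IsPGroup p ((P : Subgroup G).subgroupOf M) := P.isPGroup'.comap_subtype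
      refine S.is_maximal' hpg ?_
      intro a ha
      exact hP ⟨a, ha, rfl⟩
    have h3 : (⟨x, hxM⟩ : M) ∈ (S : Subgroup M) := by
      rw [← hmaxS]
      exact x.2
    exact hx2 (show (x : G) ∈ S₀ from ⟨_, h3, rfl⟩)
  refine ⟨P, ?_, ?_, ?_⟩
  · rw [← heq]; exact hS₀M
  · rw [← heq]; exact hS₀b
  · rw [← heq]; exact hMS₀

end Cfsg.Agent.Lib.NilpMax
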