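import Mathlib

/-!
# Abstract lemmas for the no-divisibility theorem on character degrees

* `stab_eq`: a commutative group acting on a finite commutative group so that stabilizers form an
  antichain has the same stabilizer at every nontrivial element.
* `twist_fix`: the twisting argument (a Camina type conclusion).
* `card_eq_of_fix`: orbit counting for a commutative group of coprime action.
-/

set_option autoImplicit false
set_option linter.style.haveILetI false
set_option linter.unusedVariables false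
set_option linter.unusedSectionVars false

namespace Cfsg.Agent.Lib.NoDiv17

open scoped commutatorElement

section LemmaA

variable {W H : Type*} [CommGroup W] [Finite W] (ac : H → MulAut W)

/-- `w ↦ t w / w`. -/
def dl (t : H) : W →* W where
  toFun w := ac t w * w⁻¹
  map_one' := by simp
  map_mul' a b := by
    simp only [map_mul, mul_inv]
    exact mul_mul_mul_comm _ _ _ _

theorem dl_apply (t : H) (w : W) : dl ac t w = ac t w * w⁻¹ := rfl

theorem dl_eq_one {t : H} {w : W} : dl ac t w = 1 ↔ ac t w = w := by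
  rw [dl_apply, mul_inv_eq_one]

variable {ac}

theorem dl_comm (hac : ∀ h t w, ac h (ac t w) = ac t (ac h w)) (h t : H) (w : W) :
    dl ac h (dl ac t w) = dl ac t (dl ac h w) := by
  simp only [dl_apply, map_mul, map_inv]
  rw [hac h t w]
  simp only [mul_inv, inv_inv]
  ac_rfl

theorem ac_dl (hac : ∀ h t w, ac h (ac t w) = ac t (ac h w)) (h t : H) (w : W)
    (hw : ac h w = w) : ac h (dl ac t w) = dl ac t w := by
  rw [dl_apply, map_mul, map_inv, hac, hw]

/-- **Uniform stabilizers.** -/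
theorem stab_le_of_antichain (hac : ∀ h t w, ac h (ac t w) = ac t (ac h w))
    (hAC : ∀ a b : W, a ≠ 1 → b ≠ 1 → (∀ h, ac h a = a → ac h b = b) → ∀ h, ac h b = b → ac h a = a)
    {a b : W} (ha : a ≠ 1) (hb : b ≠ 1) {t : H} (hta : ac t a = a) : ac t b = b := by
  -- step 1
  have h1 : ∀ c : W, dl ac t (dl ac t c) = 1 → dl ac t c = 1 := by
    intro c hc
    by_contra hv
    have hc1 : c ≠ 1 := by
      rintro rfl
      exact hv (map_one _)
    have h2 := hAC c (dl ac t c) hc1 hv (fun h hh => ac_dl hac h t c hh) t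
      ((dl_eq_one ac).mp hc)
    exact hv ((dl_eq_one ac).mpr h2)
  -- step 2: `dl t` is injective on its range
  have h2 : ∀ z ∈ (dl ac t).range, dl ac t z = 1 → z = 1 := by
    rintro z ⟨c, rfl⟩ hz
    exact h1 c hz
  have hsurj : ∀ b : W, ∃ b₁ ∈ (dl ac t).range, dl ac t b₁ = dl ac t b := by
    intro b
    let f : (dl ac t).range → (dl ac t).range := fun z => ⟨dl ac t z, ⟨z, rfl⟩⟩
    have hf : Function.Injective f := by
      intro x y hxy
      have h3 : dl ac t x = dl ac t y := congrArg Subtype.val hxy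
      have h4 : dl ac t ((x : W) * (y : W)⁻¹) = 1 := by
        rw [map_mul, map_inv, h3, mul_inv_cancel]
      have h5 := h2 _ (Subgroup.mul_mem _ x.2 (Subgroup.inv_mem _ y.2)) h4
      apply Subtype.ext
      exact mul_inv_eq_one.mp h5
    obtain ⟨x, hx⟩ := (Finite.injective_iff_surjective.mp hf) ⟨dl ac t b, ⟨b, rfl⟩⟩
    exact ⟨x, x.2, congrArg Subtype.val hx⟩
  obtain ⟨b₁, hb₁, hb₁'⟩ := hsurj b
  by_contra hne
  have hdlb : dl ac t b ≠ 1 := fun h => hne ((dl_eq_one ac).mp h)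
  have hb₁ne : b₁ ≠ 1 := by
    rintro rfl
    rw [map_one] at hb₁'
    exact hdlb hb₁'.symm
  -- step 3
  have hker : dl ac t a = 1 := (dl_eq_one ac).mpr hta
  have hz : a * b₁ ≠ 1 := by
    intro h
    have h3 : b₁ = a⁻¹ := eq_inv_of_mul_eq_one_right h
    apply hb₁ne
    apply h2 _ hb₁
    rw [h3, map_inv, hker, inv_one]
  have hstab : ∀ h, ac h (a * b₁) = a * b₁ → ac h a = a ∧ ac h b₁ = b₁ := by
    intro h hh
    have h3 : dl ac h a * dl ac h b₁ = 1 := by
      rw [← map_mul]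
      exact (dl_eq_one ac).mpr hh
    have h4 : dl ac h b₁ ∈ (dl ac t).range := by
      obtain ⟨c, rfl⟩ := hb₁
      exact ⟨dl ac h c, (dl_comm hac t h c)⟩
    have h5 : dl ac t (dl ac h b₁) = 1 := by
      have h6 : dl ac h b₁ = (dl ac h a)⁻¹ := eq_inv_of_mul_eq_one_right h3
      rw [h6, map_inv, dl_comm hac, hker, map_one, inv_one]
    have h7 := h2 _ h4 h5
    refine ⟨?_, (dl_eq_one ac).mp h7⟩
    rw [h7, mul_one] at h3
    exact (dl_eq_one ac).mp h3
  have h3 := hAC (a * b₁) a hz ha (fun h hh => (hstab h hh).1) t hta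
  have h4 := (hstab t h3).2
  apply hb₁ne
  apply h2 _ hb₁
  exact (dl_eq_one ac).mpr h4

end LemmaA

section LemmaC

variable {W H R : Type*} [CommGroup W] [Finite W] (ac : H → MulAut W)
  (ρ : H → R → R) (tw : W → R → R) (R₀ : Set R)

/-- The twisting argument: if every member of a twist-stable set is fixed by an element of `H` acting
freely on `W \ {1}`, then twisting does nothing. -/
theorem twist_fix
    (hρcomm : ∀ h h' ν, ρ h (ρ h' ν) = ρ h' (ρ h ν))
    (htw1 : ∀ ν, tw 1 ν = ν) (htwmul : ∀ l l' ν, tw (l * l') ν = tw l (tw l' ν))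
    (hρtw : ∀ h l ν, ρ h (tw l ν) = tw (ac h l) (ρ h ν))
    (hR₀ : ∀ ν ∈ R₀, ∀ l, tw l ν ∈ R₀)
    (hfix : ∀ ν ∈ R₀, ∃ h, (∀ l, l ≠ 1 → ac h l ≠ l) ∧ ρ h ν = ν)
    {ν : R} (hν : ν ∈ R₀) (l : W) : tw l ν = ν := by
  have hcancel : ∀ (a b : W) (μ : R), tw a μ = tw b μ → tw (a * b⁻¹) μ = μ := by
    intro a b μ h
    have h1 : tw (a * b⁻¹) μ = tw b⁻¹ (tw a μ) := by rw [mul_comm, htwmul]
    rw [h1, h, ← htwmul, inv_mul_cancel, htw1]
  -- the sublemma
  have hsub : ∀ (h : H) (μ : R), (∀ l, l ≠ 1 → ac h l ≠ l) → ρ h μ = μ →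
      ∀ y : W, tw (dl ac h y) μ = μ → tw y μ = μ := by
    intro h μ hh hμ y hy
    let Tw : Subgroup W :=
      { carrier := {l | tw l μ = μ}
        one_mem' := htw1 μ
        mul_mem' := by
          intro a b ha hb
          show tw (a * b) μ = μ
          rw [htwmul, show tw b μ = μ from hb, show tw a μ = μ from ha]
        inv_mem' := by
          intro a ha
          show tw a⁻¹ μ = μ
          have h1 : tw (a⁻¹ * a) μ = μ := by rw [inv_mul_cancel, htw1]
          rw [htwmul, show tw a μ = μ from ha] at h1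
          exact h1 }
    have hac : ∀ a ∈ Tw, ac h a ∈ Tw := by
      intro a ha
      show tw (ac h a) μ = μ
      have h1 := hρtw h a μ
      rw [show tw a μ = μ from ha, hμ] at h1
      exact h1.symm
    have hd : ∀ a ∈ Tw, dl ac h a ∈ Tw := fun a ha => Tw.mul_mem (hac a ha) (Tw.inv_mem ha)
    let f : Tw → Tw := fun a => ⟨dl ac h a, hd a a.2⟩
    have hinj : ∀ a b : W, dl ac h a = dl ac h b → a = b := by
      intro a b hab
      by_contra hne
      have h1 : a * b⁻¹ ≠ 1 := fun h2 => hne (mul_inv_eq_one.mp h2)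
      apply hh _ h1
      apply (dl_eq_one ac).mp
      rw [map_mul, map_inv, hab, mul_inv_cancel]
    have hf : Function.Injective f := by
      intro a b hab
      exact Subtype.ext (hinj _ _ (congrArg Subtype.val hab))
    obtain ⟨τ, hτ⟩ := (Finite.injective_iff_surjective.mp hf) ⟨dl ac h y, hy⟩
    have h2 : (τ : W) = y := hinj _ _ (congrArg Subtype.val hτ)
    rw [← h2]
    exact τ.2
  set ν' := tw l ν with hν'
  have hν'R := hR₀ ν hν l
  obtain ⟨h, hh, hhν⟩ := hfix ν hν
  obtain ⟨h', hh', hhν'⟩ := hfix ν' hν'R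
  -- `h` acts on `ν'`
  have h1 : ρ h ν' = tw (ac h l) ν := by
    rw [hν', hρtw, hhν]
  have hdl : ∀ (h : H) (a : W), ac h a = dl ac h a * a := by
    intro h a
    rw [dl_apply, inv_mul_cancel_right]
  have h2 : ρ h ν' = tw (dl ac h l) ν' := by
    rw [h1, hν', ← htwmul, ← hdl]
  set y := dl ac h l with hy
  have h3 : ρ h' (ρ h ν') = ρ h ν' := by
    rw [hρcomm, hhν']
  have h4 : tw (ac h' y) ν' = tw y ν' := by
    have h5 := h3
    rw [h2, hρtw, hhν'] at h5
    exact h5
  have h5 : tw (dl ac h' y) ν' = ν' := by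
    have := hcancel _ _ _ h4
    exact this
  have h6 : tw y ν' = ν' := hsub h' ν' hh' hhν' y h5
  -- so `h` fixes `ν'`
  have h7 : ρ h ν' = ν' := by rw [h2, h6]
  have h8 : tw (ac h l) ν = tw l ν := by
    rw [← h1, h7]
  have h9 : tw (dl ac h l) ν = ν := hcancel _ _ _ h8
  exact hsub h ν hh hhν l h9

end LemmaC

section LemmaB

variable {H Ω : Type*} [CommGroup H] [Finite H]

/-- `h ↦ α h / h`. -/
def dphi (α : MulAut H) : H →* H where
  toFun h := α h * h⁻¹
  map_one' := by simp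
  map_mul' a b := by
    simp only [map_mul, mul_inv]
    exact mul_mul_mul_comm _ _ _ _

theorem dphi_apply (α : MulAut H) (h : H) : dphi α h = α h * h⁻¹ := rfl

theorem dphi_mem_ker_iff (α : MulAut H) (h : H) : h ∈ (dphi α).ker ↔ α h = h := by
  rw [MonoidHom.mem_ker, dphi_apply, mul_inv_eq_one]

variable {α : MulAut H} {n b : ℕ}

theorem pow_apply_of_fixed {t a : H} (hta : α a = t * a) (ht : α t = t) (k : ℕ) :
    (α ^ k) a = t ^ k * a := by
  induction k with
  | zero => simp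
  | succ k ih =>
    rw [pow_succ', MulAut.mul_apply, ih, map_mul, map_pow, ht, hta, pow_succ, mul_assoc]

theorem dphi_fixed_eq_one (hαn : α ^ n = 1) (hb : ∀ h : H, h ^ b = 1) (hnb : n.Coprime b) {a : H}
    (h : α (dphi α a) = dphi α a) : dphi α a = 1 := by
  have h1 : α a = dphi α a * a := by rw [dphi_apply, inv_mul_cancel_right]
  have h2 := pow_apply_of_fixed h1 h n
  rw [hαn, MulAut.one_apply] at h2
  have h3 : (dphi α a) ^ n = 1 := by
    have h4 : (dphi α a) ^ n * a = 1 * a := by rw [← h2, one_mul]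
    exact mul_right_cancel h4
  have h5 := (pow_gcd_eq_one (a := dphi α a)).mpr ⟨h3, hb (dphi α a)⟩
  rw [hnb.gcd_eq_one, pow_one] at h5
  exact h5

theorem isCompl_range_ker (hαn : α ^ n = 1) (hb : ∀ h : H, h ^ b = 1) (hnb : n.Coprime b) :
    Subgroup.IsComplement' (dphi α).range (dphi α).ker := by
  apply Subgroup.isComplement'_of_card_mul_and_disjoint
  · rw [← Subgroup.index_ker, Subgroup.index_mul_card]
  · rw [Subgroup.disjoint_def]
    rintro x ⟨a, rfl⟩ hx
    exact dphi_fixed_eq_one hαn hb hnb ((dphi_mem_ker_iff α _).mp hx)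

theorem exists_inv_pow (hb : ∀ h : H, h ^ b = 1) (hnb : n.Coprime b) :
    ∃ k : ℕ, ∀ x : H, (x ^ n) ^ k = x := by
  rcases Nat.lt_or_ge 1 b with h1 | h1
  · obtain ⟨k, hk⟩ := Nat.exists_mul_mod_eq_one_of_coprime hnb h1
    refine ⟨k, fun x => ?_⟩
    rw [← pow_mul]
    conv_lhs => rw [← Nat.div_add_mod (n * k) b, hk.2, pow_add, pow_mul, hb, one_pow, one_mul, pow_one]
  · interval_cases b
    · have : n = 1 := by simpa using hnb
      subst this
      exact ⟨1, fun x => by simp⟩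
    · exact ⟨1, fun x => by
        have h2 := hb x
        rw [pow_one] at h2
        rw [h2]
        simp⟩

variable [MulAction H Ω] {f : Ω → Ω}

/-- The sequence computing iterates. -/
def seqA (α : MulAut H) (h₀ : H) : ℕ → H
  | 0 => 1
  | i + 1 => h₀ * α (seqA α h₀ i)

theorem iterate_eq_seq (hf : ∀ (h : H) (s : Ω), f (h • s) = α h • f s) {s : Ω} {h₀ : H}
    (hs : f s = h₀ • s) (i : ℕ) : f^[i] s = seqA α h₀ i • s := by
  induction i with
  | zero => simp [seqA]
  | succ i ih =>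
    rw [Function.iterate_succ_apply', ih, hf, hs, seqA, smul_smul, mul_comm]

theorem exists_fixed_point (hf : ∀ (h : H) (s : Ω), f (h • s) = α h • f s)
    (hfn : f^[n] = id) (hb : ∀ h : H, h ^ b = 1) (hnb : n.Coprime b)
    (s : Ω) {h₀ : H} (hs : f s = h₀ • s) : ∃ g : H, f (g • s) = g • s := by
  classical
  set a := seqA α h₀ with ha
  set N := a n with hN
  have hNs : N • s = s := by
    have h1 := iterate_eq_seq hf hs n
    rw [hfn, id] at h1
    exact h1.symm
  set P := ∏ i ∈ Finset.range n, a i with hP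
  have h1 : (∏ i ∈ Finset.range n, a (i + 1)) = P * N := by
    have h2 := Finset.prod_range_succ a n
    have h3 := Finset.prod_range_succ' a n
    rw [h2] at h3
    have h4 : a 0 = 1 := rfl
    rw [h4, mul_one] at h3
    exact h3.symm
  have h2 : α P = P * N * (h₀ ^ n)⁻¹ := by
    have h3 : ∀ i, α (a i) = a (i + 1) * h₀⁻¹ := by
      intro i
      show α (a i) = (h₀ * α (a i)) * h₀⁻¹
      rw [mul_comm h₀, mul_inv_cancel_right]
    rw [hP, map_prod, Finset.prod_congr rfl (fun i _ => h3 i), Finset.prod_mul_distrib, h1,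
      Finset.prod_const, Finset.card_range, inv_pow]
  have h3 : h₀ ^ n = P * N * (α P)⁻¹ := by
    rw [h2, mul_inv (P * N), inv_inv, mul_inv_cancel_left]
  obtain ⟨k, hk⟩ := exists_inv_pow hb hnb
  have h4 : h₀ = P ^ k * N ^ k * (α (P ^ k))⁻¹ := by
    rw [← hk h₀, h3, mul_pow, mul_pow, inv_pow, map_pow]
  refine ⟨P ^ k, ?_⟩
  have h5 : α (P ^ k) * h₀ = P ^ k * N ^ k := by
    conv_lhs => rw [h4]
    rw [mul_comm (P ^ k * N ^ k), ← mul_assoc, mul_inv_cancel, one_mul]
  have h6 : ∀ j : ℕ, N ^ j • s = s := by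
    intro j
    induction j with
    | zero => simp
    | succ j ih => rw [pow_succ, mul_smul, hNs, ih]
  rw [hf, hs, smul_smul, h5, mul_smul, h6]

/-- **The count**: `Ω` is the product of the image of `h ↦ α h / h` and the fixed points of `f`. -/
theorem card_eq_of_fix [Finite Ω] (hf : ∀ (h : H) (s : Ω), f (h • s) = α h • f s)
    (hfn : f^[n] = id) (hαn : α ^ n = 1) (hb : ∀ h : H, h ^ b = 1) (hnb : n.Coprime b)
    (hO : ∀ s, ∃ h : H, f s = h • s) (hfpf : ∀ (h : H) (s : Ω), h • s = s → α h = h) :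
    Nat.card Ω = Nat.card (dphi α).range * Nat.card {s : Ω // f s = s} := by
  classical
  have hcompl := isCompl_range_ker hαn hb hnb
  let Φ : (dphi α).range × {s : Ω // f s = s} → Ω := fun p => (p.1 : H) • (p.2 : Ω)
  have hΦ : Function.Bijective Φ := by
    constructor
    · rintro ⟨⟨q, hq⟩, ⟨p, hp⟩⟩ ⟨⟨q', hq'⟩, ⟨p', hp'⟩⟩ h
      have h1 : q • p = q' • p' := h
      have h2 : p' = (q'⁻¹ * q) • p := by
        rw [mul_smul, h1, inv_smul_smul]
      set y := q'⁻¹ * q with hy
      have hyq : y ∈ (dphi α).range :=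
        Subgroup.mul_mem _ (Subgroup.inv_mem _ hq') hq
      have h3 : f p' = p' := hp'
      rw [h2, hf, hp] at h3
      -- `α y / y` fixes `p`
      have h4 : (dphi α y) • p = p := by
        rw [dphi_apply, mul_comm, mul_smul, h3, inv_smul_smul]
      have h5 := hfpf _ _ h4
      have h6 := dphi_fixed_eq_one hαn hb hnb h5
      have h7 : α y = y := mul_inv_eq_one.mp h6
      obtain ⟨c, hc⟩ := hyq
      have h8 : y = 1 := by
        rw [← hc] at h7 ⊢
        exact dphi_fixed_eq_one hαn hb hnb h7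
      have h9 : q = q' := by
        have := h8
        rw [hy, inv_mul_eq_one] at this
        exact this.symm
      have h10 : p' = p := by rw [h2, h8, one_smul]
      subst h9 h10
      rfl
    · intro s
      obtain ⟨h₀, hs⟩ := hO s
      obtain ⟨g, hg⟩ := exists_fixed_point hf hfn hb hnb s hs
      obtain ⟨⟨q, c⟩, hqc, -⟩ := hcompl.existsUnique g⁻¹
      have hqc' : (q : H) * (c : H) = g⁻¹ := hqc
      have hc : α (c : H) = c := (dphi_mem_ker_iff α _).mp c.2
      refine ⟨⟨q, ⟨(c : H) • g • s, ?_⟩⟩, ?_⟩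
      · rw [hf, hg, hc]
      · show (q : H) • (c : H) • g • s = s
        rw [← mul_smul, hqc', inv_smul_smul]
  rw [← Nat.card_prod]
  exact (Nat.card_congr (Equiv.ofBijective Φ hΦ)).symm

end LemmaB

section Count

/-- The fixed points of an automorphism. -/
def fixS {S : Type*} [Group S] (σ : MulAut S) : Subgroup S where
  carrier := {s | σ s = s}
  mul_mem' := by
    intro a b ha hb
    show σ (a * b) = a * b
    rw [map_mul, show σ a = a from ha, show σ b = b from hb]
  one_mem' := map_one σ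
  inv_mem' := by
    intro a ha
    show σ a⁻¹ = a⁻¹
    rw [map_inv, show σ a = a from ha]

theorem mem_fixS {S : Type*} [Group S] {σ : MulAut S} {s : S} : s ∈ fixS σ ↔ σ s = s := Iff.rfl

theorem card_ne_one {T : Type*} [Group T] [Finite T] : Nat.card {s : T // s ≠ 1} = Nat.card T - 1 := by
  classical
  haveI : Fintype T := Fintype.ofFinite T
  rw [Nat.card_eq_fintype_card, Nat.card_eq_fintype_card, Fintype.card_subtype_compl,
    Fintype.card_subtype_eq]

/-- The orbit count on a group. -/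
theorem sec_count {S H : Type*} [Group S] [Finite S] [CommGroup H] [Finite H] (a : H →* MulAut S)
    (σ : MulAut S) (α : MulAut H) {n b : ℕ} (hσa : ∀ h, σ * a h = a (α h) * σ) (hσn : σ ^ n = 1)
    (hαn : α ^ n = 1) (hb : ∀ h : H, h ^ b = 1) (hnb : n.Coprime b)
    (hO : ∀ s, ∃ h, σ s = a h s) (hfpf : ∀ h, α h ≠ h → ∀ s, a h s = s → s = 1) :
    Nat.card S - 1 = Nat.card (dphi α).range * (Nat.card (fixS σ) - 1) := by
  classical
  letI act : MulAction H {s : S // s ≠ 1} :=
    { smul := fun h s => ⟨a h s, fun h1 => s.2 (by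
        have := (map_eq_one_iff (a h) (a h).injective).mp h1
        exact this)⟩
      one_smul := fun s => by
        apply Subtype.ext
        show a 1 (s : S) = s
        rw [map_one]
        rfl
      mul_smul := fun x y s => by
        apply Subtype.ext
        show a (x * y) (s : S) = a x (a y s)
        rw [map_mul]
        rfl }
  have hsmul : ∀ (h : H) (s : {s : S // s ≠ 1}), ((h • s : {s : S // s ≠ 1}) : S) = a h s :=
    fun _ _ => rfl
  let f : {s : S // s ≠ 1} → {s : S // s ≠ 1} := fun s => ⟨σ s, fun h1 => s.2 (by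
    have := (map_eq_one_iff σ σ.injective).mp h1
    exact this)⟩
  have hfv : ∀ s, ((f s : {s : S // s ≠ 1}) : S) = σ s := fun _ => rfl
  have hf : ∀ (h : H) (s : {s : S // s ≠ 1}), f (h • s) = α h • f s := by
    intro h s
    apply Subtype.ext
    rw [hfv, hsmul, hsmul, hfv]
    exact DFunLike.congr_fun (hσa h) (s : S)
  have hfi : ∀ (k : ℕ) (s : {s : S // s ≠ 1}), ((f^[k] s : {s : S // s ≠ 1}) : S) = (σ ^ k) s := by
    intro k s
    induction k with
    | zero => rfl
    | succ k ih =>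
      rw [Function.iterate_succ_apply', hfv, ih, pow_succ']
      rfl
  have hfn : f^[n] = id := by
    funext s
    apply Subtype.ext
    rw [hfi, hσn]
    rfl
  have h1 := card_eq_of_fix (Ω := {s : S // s ≠ 1}) (f := f) hf hfn hαn hb hnb
    (fun s => by
      obtain ⟨h, hh⟩ := hO s
      exact ⟨h, Subtype.ext hh⟩)
    (fun h s hs => by
      by_contra hne
      exact s.2 (hfpf h hne s (congrArg Subtype.val hs)))
  rw [card_ne_one] at h1
  rw [h1, ← card_ne_one (T := fixS σ)]
  congr 1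
  apply Nat.card_congr
  exact
    { toFun := fun s => ⟨⟨s.1.1, s.2.symm ▸ congrArg Subtype.val s.2⟩, fun h => s.1.2 (congrArg Subtype.val h)⟩
      invFun := fun s => ⟨⟨s.1.1, fun h => s.2 (Subtype.ext h)⟩, Subtype.ext s.1.2⟩
      left_inv := fun s => rfl
      right_inv := fun s => rfl }

/-- The valuation argument. -/
theorem val_eq {r q A a B c : ℕ} (hr : r.Prime) (hq : ¬ r ∣ q) (hq2 : 2 ≤ q)
    (h1 : r ^ A - 1 = q * (r ^ a - 1)) (h2 : r ^ B - 1 = q * (r ^ c - 1)) (hA : A ≠ 0) (hB : B ≠ 0)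
    (haA : a ≤ A) (hcB : c ≤ B) : a = c := by
  have key : ∀ {A a : ℕ}, r ^ A - 1 = q * (r ^ a - 1) → A ≠ 0 → a ≤ A →
      ∃ w : ℤ, (q : ℤ) - 1 = r ^ a * w ∧ ¬ (r : ℤ) ∣ w := by
    intro A a h1 hA haA
    have hrpos : 0 < r := hr.pos
    have hAp : 1 ≤ r ^ A := Nat.one_le_pow _ _ hrpos
    have hap : 1 ≤ r ^ a := Nat.one_le_pow _ _ hrpos
    have hA1 : 1 < r ^ A := Nat.one_lt_pow hA hr.one_lt
    have hz : ((r : ℤ) ^ A) - 1 = q * ((r : ℤ) ^ a - 1) := by
      have h3 : ((r ^ A - 1 : ℕ) : ℤ) = ((q * (r ^ a - 1) : ℕ) : ℤ) := by rw [h1]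
      push_cast [Nat.cast_sub hAp, Nat.cast_sub hap] at h3
      exact h3
    have hlt : a < A := by
      refine lt_of_le_of_ne haA ?_
      rintro rfl
      have h3 : ((r : ℤ) ^ a - 1) * (q - 1) = 0 := by linear_combination -hz
      have h4 : ((r : ℤ) ^ a - 1) ≠ 0 := by
        have : (1 : ℤ) < (r : ℤ) ^ a := by exact_mod_cast hA1
        omega
      have h5 : (q : ℤ) - 1 ≠ 0 := by omega
      exact (mul_ne_zero h4 h5) h3
    obtain ⟨d, rfl⟩ := Nat.exists_eq_add_of_lt hlt
    refine ⟨q - r ^ (d + 1), ?_, ?_⟩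
    · have h3 : (r : ℤ) ^ (a + d + 1) = r ^ a * r ^ (d + 1) := by ring
      rw [h3] at hz
      linear_combination hz
    · intro h3
      apply hq
      have h4 : (r : ℤ) ∣ r ^ (d + 1) := dvd_pow_self _ (by omega)
      have h5 : (r : ℤ) ∣ q := by
        have := dvd_add h3 h4
        simpa using this
      exact_mod_cast h5
  obtain ⟨w, hw, hw'⟩ := key h1 hA haA
  obtain ⟨w₂, hw₂, hw₂'⟩ := key h2 hB hcB
  have hrz : (r : ℤ) ≠ 0 := by exact_mod_cast hr.ne_zero
  have hmain : ∀ {a c : ℕ} {w w₂ : ℤ}, (r : ℤ) ^ a * w = r ^ c * w₂ → ¬ (r : ℤ) ∣ w → ¬ a < c := by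
    intro a c w w₂ h hw hlt
    obtain ⟨d, rfl⟩ := Nat.exists_eq_add_of_lt hlt
    apply hw
    have h3 : (r : ℤ) ^ a * w = r ^ a * (r * (r ^ d * w₂)) := by
      rw [h]
      ring
    have h4 := mul_left_cancel₀ (pow_ne_zero a hrz) h3
    rw [h4]
    exact dvd_mul_right _ _
  have h3 : (r : ℤ) ^ a * w = r ^ c * w₂ := by rw [← hw, hw₂]
  have h4 := hmain h3 hw'
  have h5 := hmain h3.symm hw₂'
  omega

/-- Fixed points through a surjection with a fixed kernel element. -/
theorem fix_card_lt {V E : Type*} [Group V] [Group E] [Finite V] [Finite E]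
    (hVc : ∀ a b : V, a * b = b * a) (σV : MulAut V) (σE : MulAut E) (ψ : V →* E)
    (hψ : Function.Surjective ψ) (hequiv : ∀ w, σE (ψ w) = ψ (σV w)) {n : ℕ} (hσV : σV ^ n = 1)
    (hcop : n.Coprime (Nat.card E)) {v : V} (hv : σV v = v) (hv1 : v ≠ 1) (hψv : ψ v = 1) :
    Nat.card (fixS σE) < Nat.card (fixS σV) := by
  classical
  -- averaging
  have hav : ∀ e : E, σE e = e → ∃ w, σV w = w ∧ ψ w = e ^ n := by
    intro e he
    obtain ⟨w, rfl⟩ := hψ e
    let P : ℕ → V := fun i => Nat.rec 1 (fun i p => p * (σV ^ i) w) i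
    have hP0 : P 0 = 1 := rfl
    have hPs : ∀ i, P (i + 1) = P i * (σV ^ i) w := fun i => rfl
    have h1 : ∀ i, σV (P i) = P (i + 1) * w⁻¹ := by
      intro i
      induction i with
      | zero =>
        rw [hP0, hPs, hP0]
        simp
      | succ i ih =>
        rw [hPs i, map_mul, ih, hPs (i + 1), hPs i, pow_succ']
        simp only [MulAut.mul_apply]
        rw [mul_assoc (P i * _) w⁻¹, hVc w⁻¹, ← mul_assoc]
    have h2 : ∀ i, ψ ((σV ^ i) w) = ψ w := by
      intro i
      induction i with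
      | zero => simp
      | succ i ih =>
        rw [pow_succ']
        show ψ (σV ((σV ^ i) w)) = ψ w
        rw [← hequiv, ih, he]
    have h3 : ∀ i, ψ (P i) = (ψ w) ^ i := by
      intro i
      induction i with
      | zero => simp [hP0]
      | succ i ih => rw [hPs, map_mul, ih, h2, pow_succ]
    refine ⟨P n, ?_, h3 n⟩
    rw [h1, hPs, hσV]
    simp
  -- the exponent
  have hEb : ∀ e : E, e ^ Nat.card E = 1 := fun e => pow_card_eq_one'
  have hinv : ∃ k : ℕ, ∀ e : E, (e ^ n) ^ k = e := by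
    rcases Nat.lt_or_ge 1 (Nat.card E) with h1 | h1
    · obtain ⟨k, hk⟩ := Nat.exists_mul_mod_eq_one_of_coprime hcop h1
      refine ⟨k, fun x => ?_⟩
      rw [← pow_mul]
      conv_lhs => rw [← Nat.div_add_mod (n * k) (Nat.card E), hk.2, pow_add, pow_mul, hEb, one_pow,
        one_mul, pow_one]
    · have h2 : Nat.card E = 1 := le_antisymm h1 Nat.card_pos
      have h3 : Subsingleton E := (Nat.card_eq_one_iff_unique.mp h2).1
      exact ⟨0, fun x => Subsingleton.elim _ _⟩
  obtain ⟨k, hk⟩ := hinv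
  have hcomm : ∀ (e : E) (j : ℕ), (e ^ j) ^ n = (e ^ n) ^ j := by
    intro e j
    rw [← pow_mul, ← pow_mul, mul_comm]
  let ψ' : fixS σV →* E := ψ.comp (fixS σV).subtype
  have hle : fixS σE ≤ ψ'.range := by
    intro e he
    have h1 : σE (e ^ k) = e ^ k := by
      rw [map_pow, mem_fixS.mp he]
    obtain ⟨w, hw, hw'⟩ := hav _ h1
    refine ⟨⟨w, hw⟩, ?_⟩
    show ψ w = e
    rw [hw', hcomm, hk]
  have h1 : Nat.card (fixS σE) ≤ Nat.card ψ'.range := Subgroup.card_le_of_le hle
  have h2 : Nat.card ψ'.range * Nat.card ψ'.ker = Nat.card (fixS σV) := by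
    rw [← Subgroup.index_ker, Subgroup.index_mul_card]
  have h3 : 1 < Nat.card ψ'.ker := by
    have : Nontrivial ψ'.ker := by
      refine ⟨⟨⟨⟨v, hv⟩, hψv⟩, 1, ?_⟩⟩
      intro h
      apply hv1
      have := congrArg (fun x : ψ'.ker => ((x : fixS σV) : V)) h
      exact this
    exact Finite.one_lt_card
  have h4 : 0 < Nat.card ψ'.range := Nat.card_pos
  nlinarith

end Count

section Sec

variable {J : Type*} [Group J]

theorem char_mem (N : Subgroup J) [hN : N.Characteristic] (τ : MulAut J) {x : J} (hx : x ∈ N) :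
    τ x ∈ N := by
  have h1 := hN.fixed τ
  rw [← h1] at hx
  exact hx

/-- Restriction of automorphisms to a characteristic subgroup. -/
def resAut (N : Subgroup J) [hN : N.Characteristic] : MulAut J →* MulAut N where
  toFun τ :=
    { toFun := fun x => ⟨τ x, char_mem N τ x.2⟩
      invFun := fun x => ⟨τ⁻¹ x, char_mem N τ⁻¹ x.2⟩
      left_inv := fun x => Subtype.ext (by simp)
      right_inv := fun x => Subtype.ext (by simp)
      map_mul' := fun x y => Subtype.ext (by simp) }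
  map_one' := by
    ext x
    rfl
  map_mul' a b := by
    ext x
    rfl

theorem resAut_apply (N : Subgroup J) [hN : N.Characteristic] (τ : MulAut J) (x : N) :
    ((resAut N τ x : N) : J) = τ x := rfl

/-- The section `N₂ / N₁`. -/
abbrev Sec (N₂ N₁ : Subgroup J) := ↥N₂ ⧸ N₁.subgroupOf N₂

variable (N₂ N₁ : Subgroup J) [h₂ : N₂.Characteristic] [h₁ : N₁.Characteristic]

theorem map_sub_eq (τ : MulAut J) :
    (N₁.subgroupOf N₂).map (resAut N₂ τ).toMonoidHom = N₁.subgroupOf N₂ := by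
  ext x
  constructor
  · rintro ⟨y, hy, rfl⟩
    exact char_mem N₁ τ hy
  · intro hx
    refine ⟨resAut N₂ τ⁻¹ x, char_mem N₁ τ⁻¹ hx, ?_⟩
    apply Subtype.ext
    show τ (τ⁻¹ x) = x
    simp

instance sec_normal : (N₁.subgroupOf N₂).Normal := by
  haveI : N₁.Normal := Subgroup.normal_of_characteristic _
  exact Subgroup.normal_subgroupOf

/-- The action on a section. -/
def secAut : MulAut J →* MulAut (Sec N₂ N₁) where
  toFun τ := QuotientGroup.congr _ _ (resAut N₂ τ) (map_sub_eq N₂ N₁ τ)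
  map_one' := by
    ext x
    induction x using QuotientGroup.induction_on with
    | H x => rfl
  map_mul' a b := by
    ext x
    induction x using QuotientGroup.induction_on with
    | H x => rfl

theorem secAut_mk (τ : MulAut J) (x : N₂) :
    secAut N₂ N₁ τ ((x : N₂) : Sec N₂ N₁) = ((resAut N₂ τ x : N₂) : Sec N₂ N₁) := rfl

theorem sec_eq_iff {x y : N₂} : ((x : N₂) : Sec N₂ N₁) = y ↔ ((x : J)⁻¹ * (y : J)) ∈ N₁ := by
  rw [QuotientGroup.eq]
  rfl

theorem sec_O (hcom : ⁅N₂, (⊤ : Subgroup J)⁆ ≤ N₁) {H : Type*} [Group H] (a : H →* MulAut J)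
    (σ : MulAut J) (h2 : ∀ g, ∃ (h : H) (j : J), σ g = j * a h g * j⁻¹) (s : Sec N₂ N₁) :
    ∃ h, secAut N₂ N₁ σ s = secAut N₂ N₁ (a h) s := by
  induction s using QuotientGroup.induction_on with
  | H x =>
    obtain ⟨h, j, hj⟩ := h2 (x : J)
    refine ⟨h, ?_⟩
    rw [secAut_mk, secAut_mk, sec_eq_iff, resAut_apply, resAut_apply, hj]
    have h3 : a h x ∈ N₂ := char_mem N₂ (a h) x.2
    have h4 : ⁅j, (a h x)⁻¹⁆ ∈ ⁅(⊤ : Subgroup J), N₂⁆ :=
      Subgroup.commutator_mem_commutator (Subgroup.mem_top _) (N₂.inv_mem h3)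
    rw [Subgroup.commutator_comm] at h4
    have h5 := hcom h4
    have h6 : (j * (a h x) * j⁻¹)⁻¹ * (a h x) = ⁅j, (a h x)⁻¹⁆ := by
      rw [commutatorElement_def]
      group
    rw [h6]
    exact h5

theorem fpf_aux (τ : MulAut J) (x y : J) (h1 : (τ y)⁻¹ * y = (τ x)⁻¹ * x) :
    τ (x * y⁻¹) = x * y⁻¹ := by
  have h3 : τ x = x * y⁻¹ * τ y := by
    calc τ x = x * ((τ x)⁻¹ * x)⁻¹ := by group
      _ = x * ((τ y)⁻¹ * y)⁻¹ := by rw [h1]
      _ = x * y⁻¹ * τ y := by group
  rw [map_mul, map_inv, h3]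
  group

theorem sec_fpf [Finite J] (τ : MulAut J) (hτ : ∀ g, τ g = g → g = 1) (s : Sec N₂ N₁)
    (hs : secAut N₂ N₁ τ s = s) : s = 1 := by
  induction s using QuotientGroup.induction_on with
  | H x =>
    rw [secAut_mk, sec_eq_iff, resAut_apply] at hs
    -- the map on `N₁`
    let f : N₁ → N₁ := fun y => ⟨(τ y)⁻¹ * y, N₁.mul_mem (N₁.inv_mem (char_mem N₁ τ y.2)) y.2⟩
    have hf : Function.Injective f := by
      intro y y' hyy
      have h1 : (τ y)⁻¹ * y = (τ y')⁻¹ * y' := congrArg Subtype.val hyy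
      have h4 := hτ _ (fpf_aux τ (y' : J) (y : J) h1)
      apply Subtype.ext
      exact (mul_inv_eq_one.mp h4).symm
    obtain ⟨y, hy⟩ := (Finite.injective_iff_surjective.mp hf) ⟨_, hs⟩
    have h1 : (τ y)⁻¹ * y = (τ x)⁻¹ * x := congrArg Subtype.val hy
    have h4 := hτ _ (fpf_aux τ (x : J) (y : J) h1)
    have h5 : (x : J) = y := mul_inv_eq_one.mp h4
    have h6 : (x : J) ∈ N₁ := by rw [h5]; exact y.2
    show ((x : N₂) : Sec N₂ N₁) = ((1 : N₂) : Sec N₂ N₁)
    rw [sec_eq_iff]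
    simpa using h6

end Sec

section Final

theorem final_contra {J H : Type*} [Group J] [Finite J] [CommGroup H] [Finite H] {r n b : ℕ}
    [hr : Fact r.Prime] (hJ : IsPGroup r J) (hrn : ¬ r ∣ n) (a : H →* MulAut J) (σ : MulAut J)
    (α : MulAut H) (hσa : ∀ h, σ * a h = a (α h) * σ) (hσn : σ ^ n = 1) (hαn : α ^ n = 1)
    (hb : ∀ h : H, h ^ b = 1) (hnb : n.Coprime b)
    (h1 : ∀ h, α h ≠ h → ∀ g, a h g = g → g = 1)
    (h2 : ∀ g, ∃ (h : H) (j : J), σ g = j * a h g * j⁻¹)
    (h3 : ∀ g, g ∉ commutator J → ∀ e ∈ commutator J, ∃ j, j * g * j⁻¹ = e * g)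
    (h4 : ∃ h, α h ≠ h) (h5 : commutator J ≠ ⊥) : False := by
  classical
  have hrp : r.Prime := hr.out
  set J' : Subgroup J := commutator J with hJ'
  let γ : Subgroup J := ⁅J', (⊤ : Subgroup J)⁆
  haveI hJ'c : J'.Characteristic := by rw [hJ']; infer_instance
  haveI hγc : γ.Characteristic := Subgroup.commutator_characteristic _ _
  haveI hγn : γ.Normal := Subgroup.normal_of_characteristic _
  haveI hJ'n : J'.Normal := Subgroup.normal_of_characteristic _
  -- the count on a section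
  have hcount : ∀ (N₂ N₁ : Subgroup J) [N₂.Characteristic] [N₁.Characteristic],
      ⁅N₂, (⊤ : Subgroup J)⁆ ≤ N₁ → Nat.card (Sec N₂ N₁) - 1 =
        Nat.card (dphi α).range * (Nat.card (fixS (secAut N₂ N₁ σ)) - 1) := by
    intro N₂ N₁ _ _ hcom
    refine sec_count ((secAut N₂ N₁).comp a) (secAut N₂ N₁ σ) α (b := b) (n := n) ?_ ?_ hαn hb hnb
      (fun s => sec_O N₂ N₁ hcom a σ h2 s) (fun h hh s hs => sec_fpf N₂ N₁ (a h) (h1 h hh) s hs)
    · intro h
      simp only [MonoidHom.comp_apply]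
      rw [← map_mul, ← map_mul, hσa]
    · rw [← map_pow, hσn, map_one]
  set Q := Nat.card (dphi α).range with hQ
  have hQ2 : 2 ≤ Q := by
    obtain ⟨h, hh⟩ := h4
    have hne : dphi α h ≠ 1 := fun h6 => hh (mul_inv_eq_one.mp h6)
    have : Nontrivial (dphi α).range := by
      refine ⟨⟨⟨dphi α h, ⟨h, rfl⟩⟩, 1, ?_⟩⟩
      intro h6
      exact hne (congrArg Subtype.val h6)
    exact Finite.one_lt_card
  haveI hJnt : Nontrivial J := by
    by_contra hne
    rw [not_nontrivial_iff_subsingleton] at hne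
    exact h5 (Subsingleton.elim _ _)
  haveI hJsol : Group.IsSolvable J := by
    haveI := hJ.isNilpotent
    infer_instance
  -- `V` and `E`
  have hcV := hcount ⊤ J' (by
    rw [hJ', commutator_def])
  have hcE := hcount J' γ le_rfl
  let V := Sec (⊤ : Subgroup J) J'
  let E := Sec J' γ
  have hVp : IsPGroup r (Sec (⊤ : Subgroup J) J') := (hJ.to_subgroup ⊤).to_quotient _
  have hEp : IsPGroup r (Sec J' γ) := (hJ.to_subgroup J').to_quotient _
  obtain ⟨A, hA⟩ := IsPGroup.iff_card.mp hVp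
  obtain ⟨B, hB⟩ := IsPGroup.iff_card.mp hEp
  obtain ⟨a', ha'⟩ := IsPGroup.iff_card.mp (hVp.to_subgroup (fixS (secAut ⊤ J' σ)))
  obtain ⟨c', hc'⟩ := IsPGroup.iff_card.mp (hEp.to_subgroup (fixS (secAut J' γ σ)))
  have hmemc : ∀ x y : J, ⁅x, y⁆ ∈ J' := fun x y =>
    Subgroup.commutator_mem_commutator (Subgroup.mem_top _) (Subgroup.mem_top _)
  have hA0 : A ≠ 0 := by
    rintro rfl
    rw [pow_zero] at hA
    have h6 : Subsingleton (Sec (⊤ : Subgroup J) J') := (Nat.card_eq_one_iff_unique.mp hA).1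
    have h7 : J' = ⊤ := by
      rw [eq_top_iff]
      intro x _
      have h8 : ((⟨x, Subgroup.mem_top x⟩ : (⊤ : Subgroup J)) : Sec (⊤ : Subgroup J) J') =
        ((1 : (⊤ : Subgroup J)) : Sec (⊤ : Subgroup J) J') := Subsingleton.elim _ _
      rw [sec_eq_iff] at h8
      simpa using h8
    exact (Group.IsSolvable.commutator_lt_top_of_nontrivial J).ne h7
  have hB0 : B ≠ 0 := by
    rintro rfl
    rw [pow_zero] at hB
    have h6 : Subsingleton (Sec J' γ) := (Nat.card_eq_one_iff_unique.mp hB).1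
    have h7 : J' ≤ γ := by
      intro x hx
      have h8 : ((⟨x, hx⟩ : J') : Sec J' γ) = ((1 : J') : Sec J' γ) := Subsingleton.elim _ _
      rw [sec_eq_iff] at h8
      simpa using h8
    haveI := hJ.isNilpotent
    obtain ⟨k, hk⟩ := (Subgroup.nilpotent_iff_lowerCentralSeries).mp (inferInstance : Group.IsNilpotent J)
    have h9 : ∀ k, J' ≤ (⊤ : Subgroup J).lowerCentralSeries (k + 1) := by
      intro k
      induction k with
      | zero =>
        rw [Subgroup.lowerCentralSeries_succ, Subgroup.lowerCentralSeries_zero]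
        exact le_rfl
      | succ k ih =>
        rw [Subgroup.lowerCentralSeries_succ]
        exact h7.trans (Subgroup.commutator_mono ih le_rfl)
    apply h5
    rw [eq_bot_iff]
    have h10 := h9 k
    have h11 : (⊤ : Subgroup J).lowerCentralSeries (k + 1) ≤ (⊤ : Subgroup J).lowerCentralSeries k :=
      Subgroup.lowerCentralSeries_antitone _ (Nat.le_succ k)
    rw [hk] at h11
    exact h10.trans h11
  have hcV' : r ^ A - 1 = Q * (r ^ a' - 1) := by
    rw [← hA, ← ha']
    exact hcV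
  have hcE' : r ^ B - 1 = Q * (r ^ c' - 1) := by
    rw [← hB, ← hc']
    exact hcE
  have hA1 : 1 < r ^ A := Nat.one_lt_pow hA0 hrp.one_lt
  have hrQ : ¬ r ∣ Q := by
    intro h6
    have h7 : r ∣ r ^ A - 1 := by
      rw [hcV']
      exact h6.mul_right _
    have h8 : r ∣ r ^ A := dvd_pow_self _ hA0
    have h9 : r ∣ 1 := by
      have := (Nat.dvd_sub h8 h7)
      rwa [Nat.sub_sub_self hA1.le] at this
    exact hrp.one_lt.ne' (Nat.dvd_one.mp h9)
  have haA : a' ≤ A := by
    have h6 := Subgroup.card_subgroup_dvd_card (fixS (secAut (⊤ : Subgroup J) J' σ))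
    rw [ha', hA] at h6
    exact (Nat.pow_dvd_pow_iff_le_right hrp.one_lt).mp h6
  have hcB : c' ≤ B := by
    have h6 := Subgroup.card_subgroup_dvd_card (fixS (secAut J' γ σ))
    rw [hc', hB] at h6
    exact (Nat.pow_dvd_pow_iff_le_right hrp.one_lt).mp h6
  have hac : a' = c' := val_eq hrp hrQ hQ2 hcV' hcE' hA0 hB0 haA hcB
  -- the fixed vector
  have hfix1 : 1 < Nat.card (fixS (secAut (⊤ : Subgroup J) J' σ)) := by
    rw [ha']
    by_contra h6
    have h7 : r ^ a' - 1 = 0 := by omega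
    rw [h7, mul_zero] at hcV'
    omega
  haveI : Nontrivial (fixS (secAut (⊤ : Subgroup J) J' σ)) := Finite.one_lt_card_iff_nontrivial.mp hfix1
  obtain ⟨⟨v, hv⟩, hv1⟩ := exists_ne (1 : fixS (secAut (⊤ : Subgroup J) J' σ))
  have hv1' : v ≠ 1 := fun h => hv1 (Subtype.ext h)
  have hv' : secAut (⊤ : Subgroup J) J' σ v = v := hv
  obtain ⟨x₀, hx₀⟩ := QuotientGroup.mk_surjective v
  set g : J := (x₀ : J) with hgdef
  have hg : g ∉ J' := by
    intro h6
    apply hv1'
    rw [← hx₀]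
    show ((x₀ : (⊤ : Subgroup J)) : Sec (⊤ : Subgroup J) J') =
      ((1 : (⊤ : Subgroup J)) : Sec (⊤ : Subgroup J) J')
    rw [sec_eq_iff]
    simpa using h6
  have hgz : (σ g)⁻¹ * g ∈ J' := by
    have h6 := hv'
    rw [← hx₀] at h6
    have h7 : secAut (⊤ : Subgroup J) J' σ ((x₀ : (⊤ : Subgroup J)) : Sec (⊤ : Subgroup J) J') =
      ((x₀ : (⊤ : Subgroup J)) : Sec (⊤ : Subgroup J) J') := h6
    rw [secAut_mk, sec_eq_iff, resAut_apply] at h7
    exact h7
  -- commutativity
  have hEc : ∀ x y : Sec J' γ, x * y = y * x := by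
    intro x y
    induction x using QuotientGroup.induction_on with
    | H x =>
    induction y using QuotientGroup.induction_on with
    | H y =>
    rw [← QuotientGroup.mk_mul, ← QuotientGroup.mk_mul, sec_eq_iff]
    have h6 : ⁅(y : J)⁻¹, (x : J)⁻¹⁆ ∈ γ :=
      Subgroup.commutator_mem_commutator (J'.inv_mem y.2) (Subgroup.mem_top _)
    have h7 : (((x * y : J') : J))⁻¹ * ((y * x : J') : J) = ⁅(y : J)⁻¹, (x : J)⁻¹⁆ := by
      rw [commutatorElement_def]
      simp only [Subgroup.coe_mul, inv_inv, mul_inv_rev, mul_assoc]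
    rw [h7]
    exact h6
  have hVc : ∀ x y : Sec (⊤ : Subgroup J) J', x * y = y * x := by
    intro x y
    induction x using QuotientGroup.induction_on with
    | H x =>
    induction y using QuotientGroup.induction_on with
    | H y =>
    rw [← QuotientGroup.mk_mul, ← QuotientGroup.mk_mul, sec_eq_iff]
    have h7 : (((x * y : (⊤ : Subgroup J)) : J))⁻¹ * ((y * x : (⊤ : Subgroup J)) : J) = ⁅(y : J)⁻¹, (x : J)⁻¹⁆ := by
      rw [commutatorElement_def]
      simp only [Subgroup.coe_mul, inv_inv, mul_inv_rev, mul_assoc]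
    rw [h7]
    exact hmemc _ _
  -- the commutator map
  have hmul : ∀ j₁ j₂ : J, ((⟨⁅j₁ * j₂, g⁆, hmemc _ _⟩ : J') : Sec J' γ) =
      ((⟨⁅j₁, g⁆, hmemc _ _⟩ : J') : Sec J' γ) * ((⟨⁅j₂, g⁆, hmemc _ _⟩ : J') : Sec J' γ) := by
    intro j₁ j₂
    rw [hEc, ← QuotientGroup.mk_mul, sec_eq_iff]
    set c := ⁅j₂, g⁆ with hc
    set d := ⁅j₁, g⁆ with hd
    have h6 : ⁅j₁, c⁻¹⁆ ∈ γ := by
      have h7 := Subgroup.commutator_mem_commutator (Subgroup.mem_top j₁) (J'.inv_mem (hmemc j₂ g))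
      rw [Subgroup.commutator_comm] at h7
      exact h7
    have h8 : (⁅j₁ * j₂, g⁆)⁻¹ * (c * d) = d⁻¹ * ⁅j₁, c⁻¹⁆ * d⁻¹⁻¹ := by
      rw [hc, hd]
      simp only [commutatorElement_def]
      group
    show (⁅j₁ * j₂, g⁆)⁻¹ * (c * d) ∈ γ
    rw [h8]
    exact hγn.conj_mem _ h6 _
  let ψ₀ : J →* Sec J' γ := MonoidHom.mk' (fun j => ((⟨⁅j, g⁆, hmemc _ _⟩ : J') : Sec J' γ)) hmul
  have hψ₀ : ∀ j, ψ₀ j = ((⟨⁅j, g⁆, hmemc _ _⟩ : J') : Sec J' γ) := fun _ => rfl
  have hker : J' ≤ ψ₀.ker := by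
    show ⁅(⊤ : Subgroup J), (⊤ : Subgroup J)⁆ ≤ ψ₀.ker
    rw [Subgroup.commutator_le]
    intro x _ y _
    rw [MonoidHom.mem_ker, map_commutatorElement, commutatorElement_def, hEc (ψ₀ x) (ψ₀ y)]
    group
  let ψ : Sec (⊤ : Subgroup J) J' →* Sec J' γ :=
    QuotientGroup.lift (J'.subgroupOf ⊤) (ψ₀.comp (⊤ : Subgroup J).subtype) (by
      intro x hx
      exact hker hx)
  have hψ : ∀ x : (⊤ : Subgroup J), ψ (x : Sec (⊤ : Subgroup J) J') = ψ₀ x := fun _ => rfl
  have hψs : Function.Surjective ψ := by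
    intro e
    induction e using QuotientGroup.induction_on with
    | H e =>
      obtain ⟨j, hj⟩ := h3 g hg e e.2
      refine ⟨((⟨j, Subgroup.mem_top j⟩ : (⊤ : Subgroup J)) : Sec (⊤ : Subgroup J) J'), ?_⟩
      rw [hψ, hψ₀]
      congr 1
      apply Subtype.ext
      show ⁅j, g⁆ = e
      rw [commutatorElement_def, hj]
      group
  have hequiv : ∀ w, secAut J' γ σ (ψ w) = ψ (secAut (⊤ : Subgroup J) J' σ w) := by
    intro w
    induction w using QuotientGroup.induction_on with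
    | H x =>
      show secAut J' γ σ ((⟨⁅(x : J), g⁆, hmemc _ _⟩ : J') : Sec J' γ) =
        ((⟨⁅σ (x : J), g⁆, hmemc _ _⟩ : J') : Sec J' γ)
      rw [secAut_mk, sec_eq_iff, resAut_apply]
      show (σ ⁅(x : J), g⁆)⁻¹ * ⁅σ x, g⁆ ∈ γ
      rw [map_commutatorElement]
      set s₁ := σ g with hs₁
      set z := s₁⁻¹ * g with hz
      have hg' : g = s₁ * z := by rw [hz]; group
      have h6 : ⁅σ (x : J), z⁆ ∈ γ := by
        have h7 := Subgroup.commutator_mem_commutator (Subgroup.mem_top (σ (x : J))) hgz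
        rw [Subgroup.commutator_comm] at h7
        exact h7
      have h8 : (⁅σ (x : J), s₁⁆)⁻¹ * ⁅σ (x : J), g⁆ = s₁ * ⁅σ (x : J), z⁆ * s₁⁻¹ := by
        rw [hg']
        simp only [commutatorElement_def]
        group
      rw [h8]
      exact hγn.conj_mem _ h6 _
  have hlt := fix_card_lt hVc (secAut (⊤ : Subgroup J) J' σ) (secAut J' γ σ) ψ hψs hequiv
    (n := n) (by rw [← map_pow, hσn, map_one])
    (by
      rw [hB]
      apply Nat.Coprime.pow_right
      exact ((Nat.Prime.coprime_iff_not_dvd hrp).mpr hrn).symm)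
    (v := v) hv' hv1' (by
      rw [← hx₀]
      show ψ ((x₀ : (⊤ : Subgroup J)) : Sec (⊤ : Subgroup J) J') = 1
      rw [hψ, hψ₀]
      show (((⟨⁅g, g⁆, hmemc _ _⟩ : J') : Sec J' γ)) = ((1 : J') : Sec J' γ)
      rw [sec_eq_iff]
      simp)
  rw [ha', hc', hac] at hlt
  exact lt_irrefl _ hlt

end Final

end Cfsg.Agent.Lib.NoDiv17
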