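import Mathlib
import Cfsg.Agent.Lib.NoFiveLocal
import Cfsg.Agent.S0495

/-!
# Abelian minimal normal subgroups with quotient of order 168.
-/

set_option autoImplicit false

namespace Cfsg.Agent.Lib.NoFive

universe u

variable {G : Type u} [Group G] [Finite G]

/-- A normal abelian 2-subgroup: the quotient does not have order 168. -/
theorem case_two (hP : IsP G) (M : Subgroup G) [hMn : M.Normal] (hM2 : IsPGroup 2 M) (hM1 : M ≠ ⊥)
    (hcomm : ∀ x ∈ M, ∀ y ∈ M, x * y = y * x) (hc : Nat.card (G ⧸ M) = 168) : False := by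
  letI : CommGroup M :=
    { (inferInstance : Group M) with
      mul_comm := by
        rintro ⟨a, ha⟩ ⟨b, hb⟩
        apply Subtype.ext
        exact hcomm a ha b hb }
  haveI : Nontrivial M := M.bot_or_nontrivial.resolve_left hM1
  let φ₀ : G →* MulAut M := MulAut.conjNormal
  have hφ₀ : ∀ q ∈ M, φ₀ q = 1 := by
    intro q hq
    apply MulEquiv.ext
    rintro ⟨v, hv⟩
    apply Subtype.ext
    change q * v * q⁻¹ = v
    rw [hcomm q hq v hv]
    group
  let φ : G ⧸ M →* MulAut M := QuotientGroup.lift M φ₀ (fun q hq => hφ₀ q hq)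
  have hfpf : ∀ w : G ⧸ M, w ≠ 1 → Odd (orderOf w) → ∀ v : M, φ w v = v → v = 1 := by
    intro w hw hodd v hv
    obtain ⟨g, rfl⟩ := QuotientGroup.mk_surjective w
    have hg1 : g ≠ 1 := by
      rintro rfl
      exact hw rfl
    have hgodd : Odd (orderOf g) := by
      rcases hP.two_or_odd g with ⟨k, hk⟩ | h
      · exfalso
        apply hw
        have h2 : orderOf (g : G ⧸ M) ∣ 2 ^ k := hk ▸ orderOf_map_dvd (QuotientGroup.mk' M) g
        obtain ⟨j, -, hj⟩ := (Nat.dvd_prime_pow Nat.prime_two).mp h2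
        exact eq_one_of_two_of_odd ⟨j, hj⟩ hodd
      · exact h
    have hv' : g * (v : G) * g⁻¹ = v := congrArg Subtype.val hv
    have hcomm' : (v : G) * g = g * v := by
      rw [← mul_inv_eq_iff_eq_mul.mp hv']
    have hv2 := two_of_mem hM2 v.2
    rcases hP.comm_two_odd hcomm' hv2 hgodd with h | h
    · exact Subtype.ext h
    · exact absurd h hg1
  exact not_card_168 (hP.quotient M) φ hfpf hc

/-- Commuting involutions in `PSL₂(7)`. -/
theorem psl27_V4 : ∃ u v : Matrix.ProjectiveSpecialLinearGroup (Fin 2) (ZMod 7),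
    u * u = 1 ∧ u ≠ 1 ∧ v * v = 1 ∧ v ≠ 1 ∧ (u * v) * (u * v) = 1 ∧ u * v ≠ 1 := by
  let C := Subgroup.center (Matrix.SpecialLinearGroup (Fin 2) (ZMod 7))
  let mk : Matrix.SpecialLinearGroup (Fin 2) (ZMod 7) →* Matrix.ProjectiveSpecialLinearGroup (Fin 2) (ZMod 7) :=
    QuotientGroup.mk' C
  have h1 : ∀ A : Matrix.SpecialLinearGroup (Fin 2) (ZMod 7),
      (A : Matrix (Fin 2) (Fin 2) (ZMod 7)) = -1 → mk A = 1 := by
    intro A hA
    apply (QuotientGroup.eq_one_iff _).mpr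
    rw [Matrix.SpecialLinearGroup.mem_center_iff]
    refine ⟨-1, by decide, ?_⟩
    rw [hA]
    ext i j
    fin_cases i <;> fin_cases j <;> simp
  have h2 : ∀ A : Matrix.SpecialLinearGroup (Fin 2) (ZMod 7),
      (A : Matrix (Fin 2) (Fin 2) (ZMod 7)) 0 1 ≠ 0 → mk A ≠ 1 := by
    intro A hA h
    have h3 : A ∈ C := (QuotientGroup.eq_one_iff _).mp h
    rw [Matrix.SpecialLinearGroup.mem_center_iff] at h3
    obtain ⟨r, -, hr⟩ := h3
    apply hA
    rw [← hr]
    simp
  let u₀ : Matrix.SpecialLinearGroup (Fin 2) (ZMod 7) := ⟨!![0, 1; -1, 0], by decide⟩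
  let v₀ : Matrix.SpecialLinearGroup (Fin 2) (ZMod 7) := ⟨!![2, 3; 3, -2], by decide⟩
  refine ⟨mk u₀, mk v₀, ?_, h2 _ (by decide), ?_, h2 _ (by decide), ?_, ?_⟩
  · rw [← map_mul]
    exact h1 _ (by decide)
  · rw [← map_mul]
    exact h1 _ (by decide)
  · rw [← map_mul, ← map_mul]
    exact h1 _ (by decide)
  · rw [← map_mul]
    exact h2 _ (by decide)

/-- A normal abelian subgroup of odd prime exponent: the quotient is not simple of order 168. -/
theorem case_odd (hP : IsP G) (M : Subgroup G) [hMn : M.Normal] {r : ℕ} (hr : r.Prime) (hr2 : r ≠ 2) (hM1 : M ≠ ⊥)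
    (hcomm : ∀ x ∈ M, ∀ y ∈ M, x * y = y * x) (hexp : ∀ x ∈ M, x ^ r = 1) [IsSimpleGroup (G ⧸ M)]
    (hc : Nat.card (G ⧸ M) = 168) : False := by
  haveI : Fact (Nat.Prime 7) := ⟨by norm_num⟩
  obtain ⟨e⟩ := Cfsg.Agent.S0495.result (G := G ⧸ M) hc (F := ZMod 7) (ZMod.card 7)
  obtain ⟨u, v, hu2, hu1, hv2, hv1, huv2, huv1⟩ := psl27_V4
  obtain ⟨i, hi⟩ := QuotientGroup.mk_surjective (e.symm u)
  obtain ⟨j, hj⟩ := QuotientGroup.mk_surjective (e.symm v)
  have hrodd : Odd r := hr.odd_of_ne_two hr2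
  have hMo : ∀ x ∈ M, Odd (orderOf x) := fun x hx => Odd.of_dvd_nat hrodd (orderOf_dvd_of_pow_eq_one (hexp x hx))
  have key : ∀ g : G, (g : G ⧸ M) * (g : G ⧸ M) = 1 → (g : G ⧸ M) ≠ 1 →
      (∃ k : ℕ, orderOf g = 2 ^ k) ∧ g * g = 1 ∧ g ≠ 1 := by
    intro g hg hg1
    have hg0 : g ≠ 1 := by
      rintro rfl
      exact hg1 rfl
    have h2 : orderOf (g : G ⧸ M) = 2 := orderOf_eq_prime (by rw [sq]; exact hg) hg1
    have h3 : 2 ∣ orderOf g := h2 ▸ orderOf_map_dvd (QuotientGroup.mk' M) g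
    have h4 : ∃ k : ℕ, orderOf g = 2 ^ k := by
      rcases hP.two_or_odd g with h | h
      · exact h
      · exact absurd (Odd.of_dvd_nat h h3) (by decide)
    refine ⟨h4, ?_, hg0⟩
    have h5 : g * g ∈ M := (QuotientGroup.eq_one_iff _).mp hg
    have h6 : g * g = g ^ 2 := (sq g).symm
    apply eq_one_of_two_of_odd _ (hMo _ h5)
    rw [h6]
    exact two_pow h4 2
  have invert : ∀ g : G, (∃ k : ℕ, orderOf g = 2 ^ k) → g * g = 1 → g ≠ 1 → ∀ a ∈ M, g * a * g⁻¹ = a⁻¹ := by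
    intro g hg2 hgg hg1 a ha
    have hginv : g⁻¹ = g := inv_eq_of_mul_eq_one_left hgg
    have hca : g * a * g⁻¹ ∈ M := hMn.conj_mem a ha g
    set b := a * (g * a * g⁻¹) with hb
    have hbM : b ∈ M := mul_mem ha hca
    have hgb : g * b = b * g := by
      have h1 : g * b * g⁻¹ = b := by
        calc g * b * g⁻¹ = (g * a * g⁻¹) * (g * (g * a * g⁻¹) * g⁻¹) := by
              rw [hb]
              group
          _ = (g * a * g⁻¹) * a := by
              congr 1
              calc g * (g * a * g⁻¹) * g⁻¹ = (g * g) * a * (g * g)⁻¹ := by group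
                _ = a := by rw [hgg]; group
          _ = b := hcomm _ hca _ ha
      exact mul_inv_eq_iff_eq_mul.mp h1
    rcases hP.comm_two_odd hgb hg2 (hMo b hbM) with h | h
    · exact absurd h hg1
    · exact eq_inv_of_mul_eq_one_right h
  have hi1 : (i : G ⧸ M) = e.symm u := hi
  have hj1 : (j : G ⧸ M) = e.symm v := hj
  have hij1 : ((i * j : G) : G ⧸ M) = e.symm (u * v) := by
    rw [QuotientGroup.mk_mul, hi1, hj1, map_mul]
  have hne : ∀ x, x ≠ 1 → e.symm x ≠ 1 := fun x hx h => hx (e.symm.map_eq_one_iff.mp h)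
  have hsq : ∀ x, x * x = 1 → e.symm x * e.symm x = 1 := by
    intro x hx
    rw [← map_mul, hx, map_one]
  obtain ⟨h1, h2, h3⟩ := key i (by rw [hi1]; exact hsq u hu2) (by rw [hi1]; exact hne u hu1)
  obtain ⟨h4, h5, h6⟩ := key j (by rw [hj1]; exact hsq v hv2) (by rw [hj1]; exact hne v hv1)
  obtain ⟨h7, h8, h9⟩ := key (i * j) (by rw [hij1]; exact hsq _ huv2) (by rw [hij1]; exact hne _ huv1)
  obtain ⟨a, ha, ha1⟩ : ∃ a ∈ M, a ≠ 1 := by
    by_contra hcon
    push Not at hcon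
    exact hM1 ((Subgroup.eq_bot_iff_forall _).mpr hcon)
  have hcc : (i * j) * a = a * (i * j) := by
    have h10 : (i * j) * a * (i * j)⁻¹ = a := by
      calc (i * j) * a * (i * j)⁻¹ = i * (j * a * j⁻¹) * i⁻¹ := by group
        _ = i * a⁻¹ * i⁻¹ := by rw [invert j h4 h5 h6 a ha]
        _ = (i * a * i⁻¹)⁻¹ := by group
        _ = a := by rw [invert i h1 h2 h3 a ha, inv_inv]
    exact mul_inv_eq_iff_eq_mul.mp h10
  rcases hP.comm_two_odd hcc h7 (hMo a ha) with h | h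
  · exact h9 h
  · exact ha1 h

end Cfsg.Agent.Lib.NoFive
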