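import Mathlib
import Cfsg.Agent.Lib.NoFiveTI
import Cfsg.Prelude.Def_LieExceptional

/-!
# Groups with the property `IsP` and trivial intersection Sylow 2-subgroups are Zassenhaus groups, II.
-/

set_option autoImplicit false

namespace Cfsg.Agent.Lib.NoFive

universe u

variable {G : Type u} [Group G] [Finite G]

variable (hP : IsP G) (hTI : ∀ X Y : Sylow 2 G, X ≠ Y → ∀ a, a ∈ (X : Subgroup G) → a ∈ (Y : Subgroup G) → a = 1)
  (hne : ∀ X : Sylow 2 G, (X : Subgroup G) ≠ ⊥)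

include hP hTI hne

lemma Dz_comm {X Y : Sylow 2 G} (hXY : X ≠ Y) {a b : G} (ha : a ∈ Dz X Y) (hb : b ∈ Dz X Y) :
    a * b = b * a := by
  obtain ⟨u, hu, h1, h2⟩ := exists_swapper hP hTI hne hXY
  have hab : a * b ∈ Dz X Y := mul_mem ha hb
  have e1 := swap_inverts hP hTI hXY hu h1 h2 ha
  have e2 := swap_inverts hP hTI hXY hu h1 h2 hb
  have e3 := swap_inverts hP hTI hXY hu h1 h2 hab
  have e4 : u * (a * b) * u⁻¹ = (u * a * u⁻¹) * (u * b * u⁻¹) := by group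
  rw [e4, e1, e2, mul_inv_rev] at e3
  have e5 := congrArg (fun x => x⁻¹) e3
  simpa using e5.symm

lemma Dz_trans {X Y : Sylow 2 G} (hXY : X ≠ Y) {i i' : G} (hiX : i ∈ (X : Subgroup G))
    (hi'X : i' ∈ (X : Subgroup G)) (hi : IsInv i) (hi' : IsInv i') :
    ∃ d ∈ Dz X Y, d * i * d⁻¹ = i' := by
  obtain ⟨j, hjY, hj⟩ := exists_inv_of_ne_bot Y.isPGroup' (hne Y)
  obtain ⟨u, hu, huij, h1, h2⟩ := exists_swap hP hTI hXY hiX hjY hi hj
  obtain ⟨u', hu', huij', h1', h2'⟩ := exists_swap hP hTI hXY hi'X hjY hi' hj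
  refine ⟨u' * u, ⟨mem_Nz_iff.mpr ?_, mem_Nz_iff.mpr ?_⟩, ?_⟩
  · rw [mul_smul, h1, h2']
  · rw [mul_smul, h2, h1']
  · have hui' : u'⁻¹ = u' := hu'.inv_eq
    have e1 : u' * j * u'⁻¹ = i' := by
      rw [← huij', hui']
      calc u' * (u' * i' * u') * u' = (u' * u') * i' * (u' * u') := by group
        _ = i' := by rw [hu'.1]; group
    calc u' * u * i * (u' * u)⁻¹ = u' * (u * i * u⁻¹) * u'⁻¹ := by group
      _ = i' := by rw [huij, e1]

/-- `N(X) = D X`. -/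
lemma Nz_decomp {X Y : Sylow 2 G} (hXY : X ≠ Y) {g : G} (hg : g ∈ Nz X) :
    ∃ d ∈ Dz X Y, ∃ x ∈ (X : Subgroup G), g = d * x := by
  obtain ⟨i, hiX, hi⟩ := exists_inv_of_ne_bot X.isPGroup' (hne X)
  obtain ⟨d, hd, hdi⟩ := Dz_trans hP hTI hne hXY hiX (conj_mem_of_Nz hg hiX) hi (hi.conj g)
  refine ⟨d, hd, d⁻¹ * g, ?_, by group⟩
  apply centralizer_le hP hTI hiX hi.2
  rw [Subgroup.mem_centralizer_singleton_iff]
  have h1 : d⁻¹ * (g * i * g⁻¹) * d = i := by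
    rw [← hdi]
    group
  calc d⁻¹ * g * i = d⁻¹ * (g * i * g⁻¹) * g := by group
    _ = d⁻¹ * (g * i * g⁻¹) * d * (d⁻¹ * g) := by group
    _ = i * (d⁻¹ * g) := by rw [h1]

/-- No non-identity element fixes three points. -/
theorem three_pt {X Y Z : Sylow 2 G} (hXY : X ≠ Y) (hXZ : X ≠ Z) (hYZ : Y ≠ Z) {g : G}
    (hgX : g ∈ Nz X) (hgY : g ∈ Nz Y) (hgZ : g ∈ Nz Z) : g = 1 := by
  obtain ⟨u₁, hu₁, h11, h12⟩ := exists_swapper hP hTI hne hXY
  obtain ⟨u₂, hu₂, h21, h22⟩ := exists_swapper hP hTI hne hXZ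
  obtain ⟨u₃, hu₃, h31, h32⟩ := exists_swapper hP hTI hne hYZ
  set w := u₃ * u₁ * u₂ with hw
  have hwZ : w ∈ Nz Z := by
    rw [mem_Nz_iff, hw, mul_smul, mul_smul, h22, h11, h31]
  have e1 := swap_inverts hP hTI hXY hu₁ h11 h12 (d := g) ⟨hgX, hgY⟩
  have e2 := swap_inverts hP hTI hXZ hu₂ h21 h22 (d := g) ⟨hgX, hgZ⟩
  have e3 := swap_inverts hP hTI hYZ hu₃ h31 h32 (d := g) ⟨hgY, hgZ⟩
  have e1' : u₁ * g⁻¹ * u₁⁻¹ = g := by
    have : u₁ * g⁻¹ * u₁⁻¹ = (u₁ * g * u₁⁻¹)⁻¹ := by group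
    rw [this, e1, inv_inv]
  have hwg : w * g * w⁻¹ = g⁻¹ := by
    calc w * g * w⁻¹ = u₃ * (u₁ * (u₂ * g * u₂⁻¹) * u₁⁻¹) * u₃⁻¹ := by rw [hw]; group
      _ = g⁻¹ := by rw [e2, e1', e3]
  obtain ⟨d, hd, z, hz, hwdz⟩ := Nz_decomp hP hTI hne hXZ.symm hwZ
  have hgD : g ∈ Dz Z X := ⟨hgZ, hgX⟩
  have hdg : d * g = g * d := Dz_comm hP hTI hne hXZ.symm hd hgD
  have hzg : z * g * z⁻¹ = g⁻¹ := by
    have h1 : d * (z * g * z⁻¹) * d⁻¹ = g⁻¹ := by
      rw [← hwg, hwdz]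
      group
    have h2 : d⁻¹ * g⁻¹ * d = g⁻¹ := by
      have h3 : d⁻¹ * g⁻¹ = g⁻¹ * d⁻¹ := by
        have : (g * d)⁻¹ = (d * g)⁻¹ := by rw [hdg]
        simpa using this
      rw [h3]
      group
    calc z * g * z⁻¹ = d⁻¹ * (d * (z * g * z⁻¹) * d⁻¹) * d := by group
      _ = d⁻¹ * g⁻¹ * d := by rw [h1]
      _ = g⁻¹ := h2
  -- `g²` lies in `Z`
  have hg2 : g⁻¹ * g⁻¹ ∈ (Z : Subgroup G) := by
    have h1 : z * (g * z⁻¹ * g⁻¹) = g⁻¹ * g⁻¹ := by
      calc z * (g * z⁻¹ * g⁻¹) = (z * g * z⁻¹) * g⁻¹ := by group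
        _ = g⁻¹ * g⁻¹ := by rw [hzg]
    rw [← h1]
    exact mul_mem hz (conj_mem_of_Nz hgZ (inv_mem hz))
  have hodd : Odd (orderOf g) := Dz_odd hP hTI hXY ⟨hgX, hgY⟩
  have h3 : Odd (orderOf (g⁻¹ * g⁻¹)) := by
    have : g⁻¹ * g⁻¹ = (g⁻¹) ^ 2 := by rw [sq]
    rw [this]
    apply odd_pow
    rwa [orderOf_inv]
  have h4 : g⁻¹ * g⁻¹ = 1 := eq_one_of_two_of_odd (two_of_mem Z.isPGroup' hg2) h3
  have h5 : g⁻¹ ^ 2 = 1 := by rwa [sq]
  have h6 : orderOf g⁻¹ ∣ 2 := orderOf_dvd_of_pow_eq_one h5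
  rw [orderOf_inv] at h6
  have h7 : orderOf g = 1 := by
    rcases (Nat.dvd_prime Nat.prime_two).mp h6 with h | h
    · exact h
    · rw [h] at hodd
      exact absurd hodd (by decide)
  exact orderOf_eq_one_iff.mp h7

/-- The involutions of `X` as a type. -/
abbrev InvS (X : Sylow 2 G) : Type u := {i : G // i ∈ (X : Subgroup G) ∧ IsInv i}

lemma card_Dz {X Y : Sylow 2 G} (hXY : X ≠ Y) : Nat.card (Dz X Y) = Nat.card (InvS X) := by
  obtain ⟨i, hiX, hi⟩ := exists_inv_of_ne_bot X.isPGroup' (hne X)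
  let f : Dz X Y → InvS X := fun d => ⟨d * i * (d : G)⁻¹, conj_mem_of_Nz d.2.1 hiX, hi.conj _⟩
  apply Nat.card_congr
  refine Equiv.ofBijective f ⟨?_, ?_⟩
  · rintro ⟨a, ha⟩ ⟨b, hb⟩ hab
    have h1 : a * i * a⁻¹ = b * i * b⁻¹ := congrArg Subtype.val hab
    have hc : b⁻¹ * a ∈ Dz X Y := mul_mem (inv_mem hb) ha
    have h2 : i * (b⁻¹ * a) = (b⁻¹ * a) * i := by
      have : b * (b⁻¹ * a * i) * a⁻¹ = b * (i * (b⁻¹ * a)) * a⁻¹ := by
        calc b * (b⁻¹ * a * i) * a⁻¹ = a * i * a⁻¹ := by group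
          _ = b * i * b⁻¹ := h1
          _ = b * (i * (b⁻¹ * a)) * a⁻¹ := by group
      have h3 := mul_left_cancel (mul_right_cancel this)
      exact h3.symm
    have h3 := hP.comm_odd_eq_one hi.2 hi.two (Dz_odd hP hTI hXY hc) h2
    apply Subtype.ext
    change a = b
    have h4 : b⁻¹ * a = 1 := h3
    exact (inv_mul_eq_one.mp h4).symm
  · rintro ⟨i', hi'X, hi'⟩
    obtain ⟨d, hd, hdi⟩ := Dz_trans hP hTI hne hXY hiX hi'X hi hi'
    exact ⟨⟨d, hd⟩, Subtype.ext hdi⟩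

lemma card_Nz {X Y : Sylow 2 G} (hXY : X ≠ Y) :
    Nat.card (Nz X) = Nat.card (Dz X Y) * Nat.card (X : Subgroup G) := by
  rw [← Nat.card_prod]
  let f : (Dz X Y) × (X : Subgroup G) → Nz X := fun p => ⟨(p.1 : G) * (p.2 : G), mul_mem p.1.2.1 (Subgroup.le_normalizer p.2.2)⟩
  symm
  apply Nat.card_congr
  refine Equiv.ofBijective f ⟨?_, ?_⟩
  · rintro ⟨⟨a, ha⟩, ⟨x, hx⟩⟩ ⟨⟨b, hb⟩, ⟨x', hx'⟩⟩ h
    have h1 : a * x = b * x' := congrArg Subtype.val h
    have h2 : b⁻¹ * a = x' * x⁻¹ := by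
      calc b⁻¹ * a = b⁻¹ * (a * x) * x⁻¹ := by group
        _ = b⁻¹ * (b * x') * x⁻¹ := by rw [h1]
        _ = x' * x⁻¹ := by group
    have hc : b⁻¹ * a ∈ Dz X Y := mul_mem (inv_mem hb) ha
    have h3 : b⁻¹ * a ∈ (X : Subgroup G) := by
      rw [h2]
      exact mul_mem hx' (inv_mem hx)
    have h4 : b⁻¹ * a = 1 := eq_one_of_two_of_odd (two_of_mem X.isPGroup' h3) (Dz_odd hP hTI hXY hc)
    have h5 : a = b := (inv_mul_eq_one.mp h4).symm
    subst h5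
    have h6 : x = x' := mul_left_cancel h1
    subst h6
    rfl
  · rintro ⟨g, hg⟩
    obtain ⟨d, hd, x, hx, rfl⟩ := Nz_decomp hP hTI hne hXY hg
    exact ⟨(⟨d, hd⟩, ⟨x, hx⟩), rfl⟩

/-- The number of Sylow subgroups other than `X`. -/
theorem card_ne_le {X : Sylow 2 G} (hD : ∀ Y : Sylow 2 G, X ≠ Y → Dz X Y ≠ ⊥) (Y₀ : Sylow 2 G) (hY₀ : X ≠ Y₀) :
    Nat.card {Y : Sylow 2 G // Y ≠ X} ≤ Nat.card (X : Subgroup G) := by
  classical
  set r := Nat.card (InvS X) with hr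
  have hDc : ∀ Y : Sylow 2 G, X ≠ Y → Nat.card (Dz X Y) = r := fun Y hY => card_Dz hP hTI hne hY
  have hr2 : 2 ≤ r := by
    rw [← hDc Y₀ hY₀]
    have h1 : Nat.card (Dz X Y₀) ≠ 1 := fun h => hD Y₀ hY₀ (Subgroup.card_eq_one.mp h)
    have h2 : 0 < Nat.card (Dz X Y₀) := Nat.card_pos
    omega
  -- the non-identity elements of two-point stabilizers
  have hcard : ∀ Y : {Y : Sylow 2 G // Y ≠ X},
      Nat.card {d : G // d ∈ Dz X Y.1 ∧ d ≠ 1} = r - 1 := by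
    intro Y
    rw [← hDc Y.1 Y.2.symm]
    have h1 : Nat.card {d : G // d ∈ Dz X Y.1 ∧ d ≠ 1} = Nat.card {d : Dz X Y.1 // d ≠ 1} := by
      apply Nat.card_congr
      exact { toFun := fun d => ⟨⟨d.1, d.2.1⟩, fun h => d.2.2 (congrArg Subtype.val h)⟩
              invFun := fun d => ⟨d.1, d.1.2, fun h => d.2 (Subtype.ext h)⟩
              left_inv := fun d => rfl
              right_inv := fun d => rfl }
    rw [h1]
    letI := Fintype.ofFinite (Dz X Y.1)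
    rw [Nat.card_eq_fintype_card, Nat.card_eq_fintype_card]
    exact Set.card_ne_eq (1 : Dz X Y.1)
  let S := Σ Y : {Y : Sylow 2 G // Y ≠ X}, {d : G // d ∈ Dz X Y.1 ∧ d ≠ 1}
  have hS : Nat.card S = Nat.card {Y : Sylow 2 G // Y ≠ X} * (r - 1) := by
    letI := Fintype.ofFinite {Y : Sylow 2 G // Y ≠ X}
    letI : ∀ Y : {Y : Sylow 2 G // Y ≠ X}, Fintype {d : G // d ∈ Dz X Y.1 ∧ d ≠ 1} := fun _ => Fintype.ofFinite _
    rw [Nat.card_sigma]
    simp only [hcard]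
    simp [Nat.card_eq_fintype_card]
  -- an injection to `(D Y₀ ∖ 1) × X`
  let T' := {d : G // d ∈ Dz X Y₀ ∧ d ≠ 1} × (X : Subgroup G)
  have hT' : Nat.card T' = (r - 1) * Nat.card (X : Subgroup G) := by
    rw [Nat.card_prod, hcard ⟨Y₀, hY₀.symm⟩]
  have hdec : ∀ s : S, ∃ p : T', (s.2.1 : G) = (p.1.1 : G) * (p.2 : G) := by
    rintro ⟨Y, d, hd, hd1⟩
    obtain ⟨d₀, hd₀, x, hx, he⟩ := Nz_decomp hP hTI hne hY₀ hd.1
    refine ⟨(⟨d₀, hd₀, ?_⟩, ⟨x, hx⟩), he⟩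
    rintro rfl
    rw [one_mul] at he
    apply hd1
    rw [he] at hd ⊢
    exact eq_one_of_two_of_odd (two_of_mem X.isPGroup' hx) (Dz_odd hP hTI Y.2.symm hd)
  choose F hF using hdec
  have hinj : Function.Injective F := by
    rintro ⟨Y, d, hd, hd1⟩ ⟨Y', d', hd', hd1'⟩ h
    have h1 : d = d' := by
      have e1 := hF ⟨Y, d, hd, hd1⟩
      have e2 := hF ⟨Y', d', hd', hd1'⟩
      simp only at e1 e2
      rw [e1, e2, h]
    subst h1
    have h2 : Y = Y' := by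
      by_contra hne'
      have hY : Y.1 ≠ Y'.1 := fun h => hne' (Subtype.ext h)
      exact hd1 (three_pt hP hTI hne Y.2.symm Y'.2.symm hY hd.1 hd.2 hd'.2)
    subst h2
    rfl
  have hle := Nat.card_le_card_of_injective F hinj
  rw [hS, hT', mul_comm] at hle
  exact Nat.le_of_mul_le_mul_left hle (by omega)


omit hP hTI hne in
theorem exists_ne_one_of_ne_bot' {H : Subgroup G} (h : H ≠ ⊥) : ∃ x ∈ H, x ≠ 1 := by
  by_contra hc
  push Not at hc
  exact h ((Subgroup.eq_bot_iff_forall _).mpr hc)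

/-- The action on the Sylow 2-subgroups of a simple group with trivial intersections. -/
theorem TI_zassenhaus [IsSimpleGroup G] (hna : ¬ ∀ a b : G, a * b = b * a)
    (hn2 : ∃ X Y : Sylow 2 G, X ≠ Y) : Cfsg.IsZassenhausGroup G (Sylow 2 G) := by
  classical
  have hD : ∀ X Y : Sylow 2 G, X ≠ Y → Dz X Y ≠ ⊥ := by
    intro X Y hXY hbot
    have hN : Nz X ≤ (X : Subgroup G) := by
      intro g hg
      obtain ⟨d, hd, x, hx, rfl⟩ := Nz_decomp hP hTI hne hXY hg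
      rw [hbot, Subgroup.mem_bot] at hd
      rw [hd, one_mul]
      exact hx
    have h1 := focal_cover hna X hN ⊥ bot_le (by
      intro w hw X' hX' hw'
      rw [Subgroup.mem_bot]
      exact hTI X' X hX' w hw' hw)
    exact hne X h1.symm
  have htr : ∀ X Y Y' : Sylow 2 G, X ≠ Y → X ≠ Y' → ∃ x ∈ (X : Subgroup G), x • Y = Y' := by
    intro X Y Y' hY hY'
    have hle := card_ne_le hP hTI hne (hD X) Y hY
    let f : ↥(X : Subgroup G) → {Z : Sylow 2 G // Z ≠ X} := fun x => ⟨(x : G) • Y, by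
      intro h
      apply hY
      have h2 : (x : G) • X = X := mem_Nz_iff.mp (Subgroup.le_normalizer x.2)
      have h3 : (x : G) • Y = (x : G) • X := by rw [h, h2]
      exact (smul_left_cancel _ h3).symm⟩
    have hinj : Function.Injective f := by
      rintro ⟨a, ha⟩ ⟨b, hb⟩ hab
      have h1 : a • Y = b • Y := congrArg Subtype.val hab
      have h2 : b⁻¹ * a ∈ Nz Y := by
        rw [mem_Nz_iff, mul_smul, h1, inv_smul_smul]
      have h3 : b⁻¹ * a ∈ (X : Subgroup G) := mul_mem (inv_mem hb) ha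
      have h4 := hTI X Y hY _ h3 (two_mem_of_Nz (two_of_mem X.isPGroup' h3) h2)
      apply Subtype.ext
      exact (inv_mul_eq_one.mp h4).symm
    have hbij : Function.Bijective f := by
      rw [Nat.bijective_iff_injective_and_card]
      exact ⟨hinj, le_antisymm (Nat.card_le_card_of_injective f hinj) hle⟩
    obtain ⟨x, hx⟩ := hbij.2 ⟨Y', hY'.symm⟩
    exact ⟨x, x.2, congrArg Subtype.val hx⟩
  obtain ⟨X₀, Y₀, hXY₀⟩ := hn2
  refine ⟨?_, ?_, ?_, ?_, ?_⟩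
  · -- faithful
    have hK : (MulAction.toPermHom G (Sylow 2 G)).ker = ⊥ := by
      rcases IsSimpleGroup.eq_bot_or_eq_top_of_normal (MulAction.toPermHom G (Sylow 2 G)).ker
        inferInstance with h | h
      · exact h
      · exfalso
        obtain ⟨g, hg⟩ := MulAction.exists_smul_eq G X₀ Y₀
        have h1 : g ∈ (MulAction.toPermHom G (Sylow 2 G)).ker := by
          rw [h]
          exact Subgroup.mem_top _
        have h2 : MulAction.toPermHom G (Sylow 2 G) g = 1 := h1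
        have h3 : g • X₀ = X₀ := by
          have := congrArg (fun p : Equiv.Perm (Sylow 2 G) => p X₀) h2
          simpa using this
        exact hXY₀ (h3.symm.trans hg)
    refine ⟨fun {g₁ g₂} h => ?_⟩
    have h1 : g₂⁻¹ * g₁ ∈ (MulAction.toPermHom G (Sylow 2 G)).ker := by
      rw [MonoidHom.mem_ker]
      ext1 a
      change (g₂⁻¹ * g₁) • a = a
      rw [mul_smul, h a, inv_smul_smul]
    rw [hK, Subgroup.mem_bot] at h1
    exact (inv_mul_eq_one.mp h1).symm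
  · -- doubly transitive
    rw [MulAction.isMultiplyPretransitive_iff]
    intro x y
    have h01 : x 0 ≠ x 1 := fun h => by
      have := x.injective h
      simp at this
    have h01' : y 0 ≠ y 1 := fun h => by
      have := y.injective h
      simp at this
    obtain ⟨g, hg⟩ := MulAction.exists_smul_eq G (x 0) (y 0)
    have h2 : y 0 ≠ g • x 1 := by
      rw [← hg]
      exact fun h => h01 (smul_left_cancel _ h)
    obtain ⟨t, ht, ht1⟩ := htr (y 0) (g • x 1) (y 1) h2 h01'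
    refine ⟨t * g, ?_⟩
    refine DFunLike.ext _ _ (fun i => ?_)
    fin_cases i
    · change (t * g) • x 0 = y 0
      rw [mul_smul, hg]
      exact mem_Nz_iff.mp (Subgroup.le_normalizer ht)
    · change (t * g) • x 1 = y 1
      rw [mul_smul, ht1]
  · -- three points
    intro g a b c hab hbc hac ha hb hc
    exact three_pt hP hTI hne hab hac hbc (mem_Nz_iff.mpr ha) (mem_Nz_iff.mpr hb) (mem_Nz_iff.mpr hc)
  · -- two points
    obtain ⟨d, hd, hd1⟩ := exists_ne_one_of_ne_bot' (hD X₀ Y₀ hXY₀)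
    exact ⟨d, hd1, X₀, Y₀, hXY₀, mem_Nz_iff.mp hd.1, mem_Nz_iff.mp hd.2⟩
  · -- no regular normal subgroup
    intro N hN htrN
    rcases IsSimpleGroup.eq_bot_or_eq_top_of_normal N hN with h | h
    · exfalso
      subst h
      obtain ⟨n, hn⟩ := htrN.exists_smul_eq X₀ Y₀
      have h1 : (n : G) = 1 := Subgroup.mem_bot.mp n.2
      have h2 : (n : G) • X₀ = Y₀ := hn
      rw [h1, one_smul] at h2
      exact hXY₀ h2
    · refine ⟨X₀, ?_⟩
      obtain ⟨i, hiX, hi⟩ := exists_inv_of_ne_bot X₀.isPGroup' (hne X₀)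
      intro hbot
      have h1 : (⟨i, by rw [h]; exact Subgroup.mem_top _⟩ : N) ∈ MulAction.stabilizer N X₀ := by
        rw [MulAction.mem_stabilizer_iff]
        exact mem_Nz_iff.mp (Subgroup.le_normalizer hiX)
      rw [hbot, Subgroup.mem_bot] at h1
      exact hi.2 (congrArg Subtype.val h1)

end Cfsg.Agent.Lib.NoFive
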