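import Mathlib
import Cfsg.Agent.Lib.NoFiveLocal
import Cfsg.Agent.Lib.NoFiveTI
import Cfsg.Agent.Lib.PCore

/-!
# Local analysis: the data attached to a 2-local subgroup with `O₂` prescribed.
-/

set_option autoImplicit false

namespace Cfsg.Agent.Lib.NoFive

universe u

open scoped commutatorElement

section WLevel

variable {W : Type*} [Group W] [Finite W]

/-- An involution of `W` normalizing `⟨y⟩` inverts `y`. -/
theorem W_inv (hW : IsP W) {y m : W} (hyp : (orderOf y).Prime) (hyo : Odd (orderOf y)) (hm1 : m ≠ 1)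
    (hmm : m * m = 1) (hconj : ∃ i : ℕ, m * y * m⁻¹ = y ^ i) : m * y * m⁻¹ = y⁻¹ := by
  obtain ⟨i, hi⟩ := hconj
  haveI : Fact (orderOf y).Prime := ⟨hyp⟩
  have hminv : m⁻¹ = m := inv_eq_of_mul_eq_one_left hmm
  have h1 : y ^ (i * i) = y ^ 1 := by
    have h2 : m * (m * y * m⁻¹) * m⁻¹ = y := by
      rw [hminv]
      calc m * (m * y * m) * m = (m * m) * y * (m * m) := by group
        _ = y := by rw [hmm]; group
    rw [hi, ← conj_pow, hi, ← pow_mul] at h2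
    rw [h2, pow_one]
  have h3 : (i * i) ≡ 1 [MOD orderOf y] := (pow_eq_pow_iff_modEq).mp h1
  have h4 : ((i : ZMod (orderOf y)) * (i : ZMod (orderOf y))) = 1 := by
    have := (ZMod.natCast_eq_natCast_iff _ _ _).mpr h3
    simpa using this
  rcases mul_self_eq_one_iff.mp h4 with h5 | h5
  · -- `m` centralizes `y`
    exfalso
    have h6 : i ≡ 1 [MOD orderOf y] := (ZMod.natCast_eq_natCast_iff _ _ _).mp (by simpa using h5)
    have h7 : y ^ i = y ^ 1 := (pow_eq_pow_iff_modEq).mpr h6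
    rw [pow_one] at h7
    have h8 : m * y = y * m := mul_inv_eq_iff_eq_mul.mp (hi.trans h7)
    have hm2 : ∃ k : ℕ, orderOf m = 2 ^ k :=
      ⟨1, by rw [pow_one]; exact orderOf_eq_prime (by rw [sq]; exact hmm) hm1⟩
    rcases hW.comm_two_odd h8 hm2 hyo with h | h
    · exact hm1 h
    · rw [h, orderOf_one] at hyp
      exact Nat.not_prime_one hyp
  · have h6 : ((i + 1 : ℕ) : ZMod (orderOf y)) = 0 := by
      push_cast
      rw [h5]
      ring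
    have h7 : orderOf y ∣ i + 1 := (ZMod.natCast_eq_zero_iff _ _).mp h6
    have h8 : y ^ (i + 1) = 1 := orderOf_dvd_iff_pow_eq_one.mp h7
    rw [hi]
    rw [pow_succ] at h8
    exact eq_inv_of_mul_eq_one_left h8

/-- For `y` of order 3: a 2-element normalizing `⟨y⟩` has its square trivial. -/
theorem W_s3 (hW : IsP W) {y v : W} (hy3 : orderOf y = 3) (hv : ∃ k : ℕ, orderOf v = 2 ^ k)
    (hconj : ∃ i : ℕ, v * y * v⁻¹ = y ^ i) : v * v = 1 := by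
  obtain ⟨i, hi⟩ := hconj
  have hy1 : y ≠ 1 := by
    rintro rfl
    rw [orderOf_one] at hy3
    omega
  have hi0 : i % 3 ≠ 0 := by
    intro h
    have h2 : y ^ i = 1 := by
      rw [← hy3] at h
      exact orderOf_dvd_iff_pow_eq_one.mp (Nat.dvd_of_mod_eq_zero h)
    rw [h2] at hi
    apply hy1
    have h3 : v⁻¹ * (v * y * v⁻¹) * v = y := by group
    rw [← h3, hi]
    group
  have hii : y ^ (i * i) = y := by
    have h1 : (i * i) ≡ 1 [MOD orderOf y] := by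
      rw [hy3]
      unfold Nat.ModEq
      rw [Nat.mul_mod]
      have : i % 3 = 1 ∨ i % 3 = 2 := by omega
      rcases this with h | h <;> rw [h]
    have := (pow_eq_pow_iff_modEq).mpr h1
    rwa [pow_one] at this
  have h2 : (v * v) * y * (v * v)⁻¹ = y := by
    calc (v * v) * y * (v * v)⁻¹ = v * (v * y * v⁻¹) * v⁻¹ := by group
      _ = y := by rw [hi, ← conj_pow, hi, ← pow_mul, hii]
  have h3 : (v * v) * y = y * (v * v) := mul_inv_eq_iff_eq_mul.mp h2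
  have h4 : Odd (orderOf y) := by rw [hy3]; decide
  have h5 : ∃ k : ℕ, orderOf (v * v) = 2 ^ k := by
    have : v * v = v ^ 2 := by rw [sq]
    rw [this]
    exact two_pow hv 2
  rcases hW.comm_two_odd h3 h5 h4 with h | h
  · exact h
  · exact absurd h hy1

end WLevel

section L

variable {L : Type*} [Group L] [Finite L]

/-- Package consequences in `L`. -/
theorem package_inv (hP : IsP L) (Q : Subgroup L) [Q.Normal] (hQ2 : IsPGroup 2 Q) {y : L}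
    (hyp : (orderOf y).Prime) (hyo : Odd (orderOf y))
    (hconj : ∀ g : L, ∃ i : ℕ, ∃ q ∈ Q, g * y * g⁻¹ = y ^ i * q) {m : L} (hm : m ∉ Q)
    (hmm : m * m ∈ Q) : m * y * m⁻¹ * y ∈ Q := by
  have hW := hP.quotient Q
  have hyQ : y ∉ Q := fun h => by
    have h1 : y = 1 := eq_one_of_two_of_odd (two_of_mem hQ2 h) hyo
    rw [h1, orderOf_one] at hyp
    exact Nat.not_prime_one hyp
  have hoy : orderOf (y : L ⧸ Q) = orderOf y := by
    have hd : orderOf (y : L ⧸ Q) ∣ orderOf y := orderOf_map_dvd (QuotientGroup.mk' Q) y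
    rcases (Nat.dvd_prime hyp).mp hd with h | h
    · exfalso
      exact hyQ ((QuotientGroup.eq_one_iff _).mp (orderOf_eq_one_iff.mp h))
    · exact h
  have hm1 : (m : L ⧸ Q) ≠ 1 := fun h => hm ((QuotientGroup.eq_one_iff _).mp h)
  have hmm' : (m : L ⧸ Q) * (m : L ⧸ Q) = 1 := (QuotientGroup.eq_one_iff _).mpr hmm
  have hc : ∃ i : ℕ, (m : L ⧸ Q) * (y : L ⧸ Q) * (m : L ⧸ Q)⁻¹ = (y : L ⧸ Q) ^ i := by
    obtain ⟨i, q, hq, he⟩ := hconj m
    refine ⟨i, ?_⟩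
    have h1 : ((m * y * m⁻¹ : L) : L ⧸ Q) = ((y ^ i * q : L) : L ⧸ Q) := by rw [he]
    have h2 : ((q : L) : L ⧸ Q) = 1 := (QuotientGroup.eq_one_iff _).mpr hq
    have h3 : ((y ^ i * q : L) : L ⧸ Q) = (y : L ⧸ Q) ^ i * ((q : L) : L ⧸ Q) := rfl
    rw [h3, h2, mul_one] at h1
    exact h1
  have h := W_inv hW (by rw [hoy]; exact hyp) (by rw [hoy]; exact hyo) hm1 hmm' hc
  rw [← QuotientGroup.eq_one_iff]
  have h4 : ((m * y * m⁻¹ * y : L) : L ⧸ Q) =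
      (m : L ⧸ Q) * (y : L ⧸ Q) * (m : L ⧸ Q)⁻¹ * (y : L ⧸ Q) := rfl
  rw [h4, h]
  group

theorem package_prodm (hP : IsP L) (Q : Subgroup L) [Q.Normal] (hQ2 : IsPGroup 2 Q) {y : L}
    (hyp : (orderOf y).Prime) (hyo : Odd (orderOf y))
    (hconj : ∀ g : L, ∃ i : ℕ, ∃ q ∈ Q, g * y * g⁻¹ = y ^ i * q) {a b : L} (ha : a ∉ Q)
    (haa : a * a ∈ Q) (hb : b ∉ Q) (hbb : b * b ∈ Q) (hab : ∃ k : ℕ, orderOf (a * b) = 2 ^ k) :
    a * b ∈ Q := by
  have h1 := package_inv hP Q hQ2 hyp hyo hconj ha haa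
  have h2 := package_inv hP Q hQ2 hyp hyo hconj hb hbb
  have hy1 : y ≠ 1 := by
    rintro rfl
    rw [orderOf_one] at hyp
    exact Nat.not_prime_one hyp
  apply comm_mod hP Q hQ2 hab hyo hy1
  -- work modulo `Q`
  rw [← QuotientGroup.eq_one_iff] at h1 h2 ⊢
  have e1 : (a : L ⧸ Q) * (y : L ⧸ Q) * (a : L ⧸ Q)⁻¹ * (y : L ⧸ Q) = 1 := h1
  have e2 : (b : L ⧸ Q) * (y : L ⧸ Q) * (b : L ⧸ Q)⁻¹ * (y : L ⧸ Q) = 1 := h2
  change (a : L ⧸ Q) * (b : L ⧸ Q) * (y : L ⧸ Q) * ((a : L ⧸ Q) * (b : L ⧸ Q))⁻¹ * (y : L ⧸ Q)⁻¹ = 1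
  have e3 : (b : L ⧸ Q) * (y : L ⧸ Q) * (b : L ⧸ Q)⁻¹ = (y : L ⧸ Q)⁻¹ := eq_inv_of_mul_eq_one_left e2
  have e4 : (a : L ⧸ Q) * (y : L ⧸ Q) * (a : L ⧸ Q)⁻¹ = (y : L ⧸ Q)⁻¹ := eq_inv_of_mul_eq_one_left e1
  have e5 : (a : L ⧸ Q) * (y : L ⧸ Q)⁻¹ * (a : L ⧸ Q)⁻¹ = (y : L ⧸ Q) := by
    have : (a : L ⧸ Q) * (y : L ⧸ Q)⁻¹ * (a : L ⧸ Q)⁻¹ = ((a : L ⧸ Q) * (y : L ⧸ Q) * (a : L ⧸ Q)⁻¹)⁻¹ := by group
    rw [this, e4, inv_inv]
  calc (a : L ⧸ Q) * (b : L ⧸ Q) * (y : L ⧸ Q) * ((a : L ⧸ Q) * (b : L ⧸ Q))⁻¹ * (y : L ⧸ Q)⁻¹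
      = (a : L ⧸ Q) * ((b : L ⧸ Q) * (y : L ⧸ Q) * (b : L ⧸ Q)⁻¹) * (a : L ⧸ Q)⁻¹ * (y : L ⧸ Q)⁻¹ := by group
    _ = 1 := by rw [e3, e5]; group

theorem package_s3 (hP : IsP L) (Q : Subgroup L) [Q.Normal] {y : L} (hy3 : orderOf y = 3)
    (hconj : ∀ g : L, ∃ i : ℕ, ∃ q ∈ Q, g * y * g⁻¹ = y ^ i * q) (hQ2 : IsPGroup 2 Q) {v : L}
    (hv : ∃ k : ℕ, orderOf v = 2 ^ k) : v * v ∈ Q := by
  have hW := hP.quotient Q
  have hyQ : y ∉ Q := fun h => by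
    have h1 : y = 1 := eq_one_of_two_of_odd (two_of_mem hQ2 h) (by rw [hy3]; decide)
    rw [h1, orderOf_one] at hy3
    omega
  have hoy : orderOf (y : L ⧸ Q) = 3 := by
    have hd : orderOf (y : L ⧸ Q) ∣ 3 := hy3 ▸ orderOf_map_dvd (QuotientGroup.mk' Q) y
    rcases (Nat.dvd_prime Nat.prime_three).mp hd with h | h
    · exfalso
      exact hyQ ((QuotientGroup.eq_one_iff _).mp (orderOf_eq_one_iff.mp h))
    · exact h
  have hc : ∃ i : ℕ, (v : L ⧸ Q) * (y : L ⧸ Q) * (v : L ⧸ Q)⁻¹ = (y : L ⧸ Q) ^ i := by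
    obtain ⟨i, q, hq, he⟩ := hconj v
    refine ⟨i, ?_⟩
    have h1 : ((v * y * v⁻¹ : L) : L ⧸ Q) = ((y ^ i * q : L) : L ⧸ Q) := by rw [he]
    have h2 : ((q : L) : L ⧸ Q) = 1 := (QuotientGroup.eq_one_iff _).mpr hq
    have h3 : ((y ^ i * q : L) : L ⧸ Q) = (y : L ⧸ Q) ^ i * ((q : L) : L ⧸ Q) := rfl
    rw [h3, h2, mul_one] at h1
    exact h1
  have hv' : ∃ k : ℕ, orderOf (v : L ⧸ Q) = 2 ^ k := by
    obtain ⟨k, hk⟩ := hv
    have h2 : orderOf (v : L ⧸ Q) ∣ 2 ^ k := hk ▸ orderOf_map_dvd (QuotientGroup.mk' Q) v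
    obtain ⟨j, -, hj⟩ := (Nat.dvd_prime_pow Nat.prime_two).mp h2
    exact ⟨j, hj⟩
  have h := W_s3 hW hoy hv' hc
  exact (QuotientGroup.eq_one_iff _).mp h

end L

section G

variable {G : Type u} [Group G] [Finite G]

/-- The normalizer of a subgroup. -/
abbrev Nr (R : Subgroup G) : Subgroup G := Subgroup.normalizer (R : Set G)

lemma conj_mem_Nr {R : Subgroup G} {g r : G} (hg : g ∈ Nr R) (hr : r ∈ R) : g * r * g⁻¹ ∈ R :=
  (Subgroup.mem_normalizer_iff.mp hg r).mp hr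

lemma conj_inv_mem_Nr {R : Subgroup G} {g r : G} (hg : g ∈ Nr R) (hr : r ∈ R) : g⁻¹ * r * g ∈ R := by
  have := conj_mem_Nr (inv_mem hg) hr
  simpa using this

/-- In a finite group conjugating a subgroup into itself means normalizing it. -/
lemma mem_Nr_of_conj {R : Subgroup G} {v : G} (h : ∀ r ∈ R, v * r * v⁻¹ ∈ R) : v ∈ Nr R := by
  rw [Subgroup.mem_normalizer_iff]
  intro g
  refine ⟨h g, fun hg => ?_⟩
  let f : R → R := fun r => ⟨v * r * v⁻¹, h r r.2⟩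
  have hf : Function.Injective f := by
    rintro ⟨a, ha⟩ ⟨b, hb⟩ hab
    have h1 : v * a * v⁻¹ = v * b * v⁻¹ := congrArg Subtype.val hab
    exact Subtype.ext (mul_left_cancel (mul_right_cancel h1))
  obtain ⟨⟨r, hr⟩, hr'⟩ := (Finite.injective_iff_surjective.mp hf) ⟨_, hg⟩
  have h1 : v * r * v⁻¹ = v * g * v⁻¹ := congrArg Subtype.val hr'
  have h2 : r = g := mul_left_cancel (mul_right_cancel h1)
  rwa [← h2]

/-- Normalizers grow in 2-groups. -/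
theorem exists_normalizer_gt {T R : Subgroup G} (hT : IsPGroup 2 T) (hRT : R ≤ T) (hne : R ≠ T) :
    ∃ v ∈ T, v ∈ Nr R ∧ v ∉ R := by
  haveI : Fact (Nat.Prime 2) := ⟨Nat.prime_two⟩
  haveI : Group.IsNilpotent T := hT.isNilpotent
  set H : Subgroup T := R.subgroupOf T with hH
  have hHtop : H ≠ ⊤ := by
    intro h
    apply hne
    apply le_antisymm hRT
    intro t ht
    have h4 : (⟨t, ht⟩ : T) ∈ H := by
      rw [h]
      exact Subgroup.mem_top _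
    exact h4
  have hlt : H < ⊤ := lt_top_iff_ne_top.mpr hHtop
  have h1 := normalizerCondition_of_isNilpotent H hlt
  obtain ⟨v, hv, hvH⟩ := SetLike.exists_of_lt h1
  refine ⟨v, v.2, ?_, hvH⟩
  apply mem_Nr_of_conj
  intro r hr
  have hrT : r ∈ T := hRT hr
  have h2 := (Subgroup.mem_normalizer_iff.mp hv ⟨r, hrT⟩).mp hr
  exact h2

/-- `comm_mod`, in `G`. -/
theorem comm_modG (hP : IsP G) {P Q : Subgroup G} (hQP : Q ≤ P) (hPQ : P ≤ Nr Q) (hQ2 : IsPGroup 2 Q)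
    {a b : G} (ha : a ∈ P) (hb : b ∈ P) (h2a : ∃ k : ℕ, orderOf a = 2 ^ k) (hob : Odd (orderOf b))
    (hb1 : b ≠ 1) (hab : a * b * a⁻¹ * b⁻¹ ∈ Q) : a ∈ Q := by
  haveI : (Q.subgroupOf P).Normal := (Subgroup.normal_subgroupOf_iff_le_normalizer hQP).mpr hPQ
  have hQ2' : IsPGroup 2 (Q.subgroupOf P) := by
    apply isPGroup_of_two
    intro g hg
    have h1 := two_of_mem hQ2 (Subgroup.mem_subgroupOf.mp hg)
    obtain ⟨k, hk⟩ := h1
    exact ⟨k, by rw [← hk, Subgroup.orderOf_coe]⟩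
  have h := comm_mod (hP.subgroup P) (Q.subgroupOf P) hQ2' (a := ⟨a, ha⟩) (b := ⟨b, hb⟩)
    (by simpa [Subgroup.orderOf_mk] using h2a) (by simpa [Subgroup.orderOf_mk] using hob)
    (fun h => hb1 (congrArg Subtype.val h)) (Subgroup.mem_subgroupOf.mpr hab)
  exact Subgroup.mem_subgroupOf.mp h

/-- The data attached to `P`, `Q = O₂(P)`. -/
structure LocData (P Q : Subgroup G) (y : G) : Prop where
  mem : y ∈ P
  prime : (orderOf y).Prime
  odd : Odd (orderOf y)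
  inv : ∀ m ∈ P, m ∉ Q → m * m ∈ Q → m * y * m⁻¹ * y ∈ Q
  prodm : ∀ a ∈ P, ∀ b ∈ P, a ∉ Q → b ∉ Q → a * a ∈ Q → b * b ∈ Q →
    (∃ k : ℕ, orderOf (a * b) = 2 ^ k) → a * b ∈ Q
  s3 : orderOf y = 3 → ∀ v ∈ P, (∃ k : ℕ, orderOf v = 2 ^ k) → v * v ∈ Q
  comm : ∀ a ∈ P, ∀ b ∈ P, ∃ i : ℕ, ∃ q ∈ Q, a * b * a⁻¹ * b⁻¹ = y ^ i * q

/-- Existence of the data. -/
theorem exists_locData (hP : IsP G)
    (hIH : ∀ (W : Type u) [Group W] [Finite W], Nat.card W < Nat.card G → IsP W →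
      3 ≤ (Nat.card W).primeFactors.card → Nat.card W = 168)
    {P Q : Subgroup G} (hQP : Q ≤ P) (hPQ : P ≤ Nr Q) (hQ2 : IsPGroup 2 Q) (hQ1 : Q ≠ ⊥)
    (hO : ∀ Q' : Subgroup G, Q' ≤ P → P ≤ Nr Q' → IsPGroup 2 Q' → Q' ≤ Q) (hne : Q ≠ P) :
    ∃ y, LocData P Q y := by
  haveI hn : (Q.subgroupOf P).Normal := (Subgroup.normal_subgroupOf_iff_le_normalizer hQP).mpr hPQ
  have hQ2' : IsPGroup 2 (Q.subgroupOf P) := by
    apply isPGroup_of_two
    intro g hg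
    have h1 := two_of_mem hQ2 (Subgroup.mem_subgroupOf.mp hg)
    obtain ⟨k, hk⟩ := h1
    exact ⟨k, by rw [← hk, Subgroup.orderOf_coe]⟩
  have hQ1' : Q.subgroupOf P ≠ ⊥ := by
    intro h
    apply hQ1
    rw [eq_bot_iff]
    intro q hq
    have h1 : (⟨q, hQP hq⟩ : P) ∈ Q.subgroupOf P := hq
    rw [h, Subgroup.mem_bot] at h1
    rw [Subgroup.mem_bot]
    exact congrArg Subtype.val h1
  have hO' : ∀ Q' : Subgroup P, Q'.Normal → IsPGroup 2 Q' → Q' ≤ Q.subgroupOf P := by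
    intro Q' hQ'n hQ'2
    have h1 : Q'.map P.subtype ≤ Q := by
      apply hO
      · exact Subgroup.map_subtype_le Q'
      · intro g hg
        apply mem_Nr_of_conj
        rintro _ ⟨x, hx, rfl⟩
        exact ⟨⟨g, hg⟩ * x * (⟨g, hg⟩ : P)⁻¹, hQ'n.conj_mem x hx _, rfl⟩
      · apply isPGroup_of_two
        rintro _ ⟨x, hx, rfl⟩
        obtain ⟨k, hk⟩ := two_of_mem hQ'2 hx
        exact ⟨k, by rw [← hk]; exact Subgroup.orderOf_coe x⟩
    intro x hx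
    exact h1 ⟨x, hx, rfl⟩
  have hne' : Q.subgroupOf P ≠ ⊤ := by
    intro h
    apply hne
    apply le_antisymm hQP
    intro t ht
    have h4 : (⟨t, ht⟩ : P) ∈ Q.subgroupOf P := by
      rw [h]
      exact Subgroup.mem_top _
    exact h4
  have hIH' : ∀ (W : Type u) [Group W] [Finite W], Nat.card W < Nat.card P → IsP W →
      3 ≤ (Nat.card W).primeFactors.card → Nat.card W = 168 := by
    intro W _ _ h1 h2 h3
    exact hIH W (lt_of_lt_of_le h1 (Subgroup.card_le_card_group P)) h2 h3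
  obtain ⟨y, hyp, hyo, hconj, hcomm⟩ := package (hP.subgroup P) (Q.subgroupOf P) hQ2' hQ1' hO' hne' hIH'
  have hoy : ∀ x : P, orderOf x = orderOf (x : G) := fun x => (Subgroup.orderOf_coe x).symm
  refine ⟨(y : G), ⟨y.2, by rw [← hoy]; exact hyp, by rw [← hoy]; exact hyo, ?_, ?_, ?_, ?_⟩⟩
  · intro m hm hmQ hmm
    have h := package_inv (hP.subgroup P) (Q.subgroupOf P) hQ2' hyp hyo hconj (m := ⟨m, hm⟩)
      (fun h => hmQ (Subgroup.mem_subgroupOf.mp h)) (Subgroup.mem_subgroupOf.mpr hmm)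
    exact Subgroup.mem_subgroupOf.mp h
  · intro a ha b hb haQ hbQ haa hbb hab
    have h := package_prodm (hP.subgroup P) (Q.subgroupOf P) hQ2' hyp hyo hconj (a := ⟨a, ha⟩)
      (b := ⟨b, hb⟩) (fun h => haQ (Subgroup.mem_subgroupOf.mp h)) (Subgroup.mem_subgroupOf.mpr haa)
      (fun h => hbQ (Subgroup.mem_subgroupOf.mp h)) (Subgroup.mem_subgroupOf.mpr hbb)
      (by
        obtain ⟨k, hk⟩ := hab
        exact ⟨k, by rw [hoy]; exact hk⟩)
    exact Subgroup.mem_subgroupOf.mp h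
  · intro hy3 v hv h2v
    have h := package_s3 (hP.subgroup P) (Q.subgroupOf P) (y := y) (by rw [hoy]; exact hy3) hconj hQ2'
      (v := ⟨v, hv⟩) (by
        obtain ⟨k, hk⟩ := h2v
        exact ⟨k, by rw [hoy]; exact hk⟩)
    exact Subgroup.mem_subgroupOf.mp h
  · intro a ha b hb
    obtain ⟨i, q, hq, he⟩ := hcomm ⟨a, ha⟩ ⟨b, hb⟩
    exact ⟨i, q, Subgroup.mem_subgroupOf.mp hq, congrArg Subtype.val he⟩

end G

end Cfsg.Agent.Lib.NoFive
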