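import Mathlib
import Cfsg.Agent.Lib.NoFiveTame3

/-!
# Local analysis: the small subgroups.
-/

set_option autoImplicit false

namespace Cfsg.Agent.Lib.NoFive

universe u

open scoped commutatorElement

variable {G : Type u} [Group G] [Finite G]

/-- Four elements of a group of exponent two and order four. -/
theorem four_elts {E : Subgroup G} (hE : Nat.card E = 4) (hel : IsEl E) {a b : G} (ha : a ∈ E) (hb : b ∈ E)
    (ha1 : a ≠ 1) (hb1 : b ≠ 1) (hab : a ≠ b) : ∀ e ∈ E, e = 1 ∨ e = a ∨ e = b ∨ e = a * b := by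
  classical
  letI := Fintype.ofFinite E
  have hab1 : a * b ≠ 1 := by
    intro h
    have h1 : b = a := by
      calc b = (a * a) * b := by rw [hel a ha, one_mul]
        _ = a * (a * b) := by group
        _ = a := by rw [h, mul_one]
    exact hab h1.symm
  have hab2 : a * b ≠ a := fun h => hb1 (mul_eq_left.mp h)
  have hab3 : a * b ≠ b := fun h => ha1 (mul_eq_right.mp h)
  let S : Finset E := {⟨1, E.one_mem⟩, ⟨a, ha⟩, ⟨b, hb⟩, ⟨a * b, mul_mem ha hb⟩}
  have hS : S.card = 4 := by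
    rw [Finset.card_insert_of_notMem, Finset.card_insert_of_notMem, Finset.card_insert_of_notMem,
      Finset.card_singleton]
    · simp only [Finset.mem_singleton, Subtype.mk.injEq]
      exact fun h => hab3 h.symm
    · simp only [Finset.mem_insert, Finset.mem_singleton, Subtype.mk.injEq, not_or]
      exact ⟨hab, fun h => hab2 h.symm⟩
    · simp only [Finset.mem_insert, Finset.mem_singleton, Subtype.mk.injEq, not_or]
      exact ⟨fun h => ha1 h.symm, fun h => hb1 h.symm, fun h => hab1 h.symm⟩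
  have hSu : S = Finset.univ := by
    apply Finset.eq_univ_of_card
    rw [hS, ← Nat.card_eq_fintype_card, hE]
  intro e he
  have h1 : (⟨e, he⟩ : E) ∈ S := by
    rw [hSu]
    exact Finset.mem_univ _
  simp only [S, Finset.mem_insert, Finset.mem_singleton, Subtype.mk.injEq] at h1
  exact h1

lemma omZ_isEl (R : Subgroup G) : IsEl (omZ R) := fun _ h => h.2.2

/-- At most two elements. -/
theorem eq_of_card_le_two {K : Subgroup G} (hK : Nat.card K ≤ 2) {a b : G} (ha : a ∈ K) (hb : b ∈ K)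
    (ha1 : a ≠ 1) (hb1 : b ≠ 1) : a = b := by
  classical
  by_contra hab
  let f : Fin 3 → K := ![⟨1, K.one_mem⟩, ⟨a, ha⟩, ⟨b, hb⟩]
  have hf : Function.Injective f := by
    intro i j h
    fin_cases i <;> fin_cases j <;> simp [f, Subtype.ext_iff] at h ⊢
    · exact ha1 h.symm
    · exact hb1 h.symm
    · exact ha1 h
    · exact hab h
    · exact hb1 h
    · exact hab h.symm
  have := Nat.card_le_card_of_injective f hf
  simp at this
  omega

section Loc

variable {R : Subgroup G} {y : G} (hP : IsP G) (hL : LocData (Nr R) R y)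

include hP hL

/-- If `|Ω₁Z(R)| = 4` then `y` has order three. -/
theorem orderOf_y_of_card_four (hE4 : Nat.card (omZ R) = 4) : orderOf y = 3 := by
  classical
  letI := Fintype.ofFinite (omZ R)
  have hex : ∃ e₀ ∈ omZ R, e₀ ≠ 1 := by
    by_contra hc
    push Not at hc
    have : omZ R = ⊥ := (Subgroup.eq_bot_iff_forall _).mpr hc
    rw [this, Subgroup.card_bot] at hE4
    omega
  obtain ⟨e₀, he₀, he₀1⟩ := hex
  have hpow : ∀ k : ℕ, y ^ k ∈ Nr R := fun k => pow_mem hL.mem k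
  have hconjne : ∀ k : ℕ, y ^ k * e₀ * (y ^ k)⁻¹ ≠ 1 := by
    intro k h
    apply he₀1
    have : e₀ = (y ^ k)⁻¹ * (y ^ k * e₀ * (y ^ k)⁻¹) * y ^ k := by group
    rw [this, h]
    group
  set s := orderOf y with hs
  have hspos : 0 < s := orderOf_pos y
  let f : Fin s → {e : omZ R // e ≠ 1} := fun k =>
    ⟨⟨y ^ (k : ℕ) * e₀ * (y ^ (k : ℕ))⁻¹, omZ_conj (hpow k) he₀⟩, fun h => hconjne k (congrArg Subtype.val h)⟩
  have hf : Function.Injective f := by
    intro i j hij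
    have h1 : y ^ (i : ℕ) * e₀ * (y ^ (i : ℕ))⁻¹ = y ^ (j : ℕ) * e₀ * (y ^ (j : ℕ))⁻¹ :=
      congrArg (fun e : {e : omZ R // e ≠ 1} => ((e : omZ R) : G)) hij
    set w := (y ^ (j : ℕ))⁻¹ * y ^ (i : ℕ) with hw
    have h2 : e₀ * w = w * e₀ := by
      have h3 : w * e₀ * w⁻¹ = e₀ := by
        calc w * e₀ * w⁻¹ = (y ^ (j : ℕ))⁻¹ * (y ^ (i : ℕ) * e₀ * (y ^ (i : ℕ))⁻¹) * y ^ (j : ℕ) := by
              rw [hw]; group
          _ = (y ^ (j : ℕ))⁻¹ * (y ^ (j : ℕ) * e₀ * (y ^ (j : ℕ))⁻¹) * y ^ (j : ℕ) := by rw [h1]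
          _ = e₀ := by group
      exact (mul_inv_eq_iff_eq_mul.mp h3).symm
    have hwodd : Odd (orderOf w) := by
      have h4 : w ^ s = 1 := by
        rw [hw]
        have hc : Commute (y ^ (j : ℕ))⁻¹ (y ^ (i : ℕ)) := ((Commute.refl y).pow_pow _ _).inv_left
        have hys : y ^ s = 1 := pow_orderOf_eq_one y
        have a1 : (y ^ (j : ℕ)) ^ s = 1 := by rw [← pow_mul, mul_comm, pow_mul, hys, one_pow]
        have a2 : (y ^ (i : ℕ)) ^ s = 1 := by rw [← pow_mul, mul_comm, pow_mul, hys, one_pow]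
        rw [hc.mul_pow, inv_pow, a1, a2]
        simp
      exact Odd.of_dvd_nat hL.odd (orderOf_dvd_of_pow_eq_one h4)
    rcases hP.comm_two_odd h2 (omZ_two he₀) hwodd with h5 | h5
    · exact absurd h5 he₀1
    · have h6 : y ^ (i : ℕ) = y ^ (j : ℕ) := (inv_mul_eq_one.mp h5).symm
      have h7 := pow_injOn_Iio_orderOf (x := y) (Set.mem_Iio.mpr i.2) (Set.mem_Iio.mpr j.2) h6
      exact Fin.ext h7
  have hle := Nat.card_le_card_of_injective f hf
  have hcard : Nat.card {e : omZ R // e ≠ 1} = 3 := by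
    rw [Nat.card_eq_fintype_card]
    have := Set.card_ne_eq (1 : omZ R)
    have h2 : Fintype.card (omZ R) = 4 := by rw [← Nat.card_eq_fintype_card, hE4]
    rw [h2] at this
    exact this
  rw [hcard, Nat.card_eq_fintype_card, Fintype.card_fin] at hle
  have hp := hL.prime
  have ho := hL.odd
  rw [← hs] at hp ho
  have h2 : s ≠ 1 := hp.ne_one
  have h3 : s ≠ 2 := by
    intro h
    rw [h] at ho
    exact absurd ho (by decide)
  have h4 : s ≠ 0 := hp.ne_zero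
  omega

omit hP in
lemma y3_of_order (h : orderOf y = 3) : y * y * y = 1 := by
  have := pow_orderOf_eq_one y
  rw [h, pow_succ, pow_two] at this
  exact this

/-- `y` has no fixed points on `R`. -/
lemma fix_of_loc (hR2 : IsPGroup 2 R) : ∀ c ∈ R, y * c * y⁻¹ = c → c = 1 := by
  intro c hc h
  apply hL.eq_one_of_comm hP (two_of_mem hR2 hc)
  exact (mul_inv_eq_iff_eq_mul.mp h).symm

/-- Normality of subgroups of index two. -/
theorem conj_mem_of_index {I : Subgroup G} (hInd : ∀ a ∈ R, ∀ b ∈ R, a ∉ I → b ∉ I → a * b ∈ I)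
    (hIR : I ≤ R) {r i : G} (hr : r ∈ R) (hi : i ∈ I) : r * i * r⁻¹ ∈ I := by
  by_cases hrI : r ∈ I
  · exact mul_mem (mul_mem hrI hi) (inv_mem hrI)
  · have h1 : r * i ∉ I := fun h => hrI (by
      have : r = r * i * i⁻¹ := by group
      rw [this]
      exact mul_mem h (inv_mem hi))
    have h2 : r⁻¹ ∉ I := fun h => hrI (by simpa using inv_mem h)
    exact hInd _ (mul_mem hr (hIR hi)) _ (inv_mem hr) h1 h2

/-- The criterion for `R = Ω₁Z(R)`. -/
theorem le_omZ_of_index_two (hR2 : IsPGroup 2 R) (hE4 : Nat.card (omZ R) = 4) {I : Subgroup G} (hIR : I ≤ R)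
    (hInd : ∀ a ∈ R, ∀ b ∈ R, a ∉ I → b ∉ I → a * b ∈ I) {x : G} (hxE : x ∈ omZ R) (hxI : x ∉ I) :
    R ≤ omZ R := by
  have hy3 := orderOf_y_of_card_four hP hL hE4
  have hyyy := y3_of_order hL hy3
  have hfix := fix_of_loc hP hL hR2
  have hyN : y ∈ Nr R := hL.mem
  have hN := fun {a} (ha : a ∈ R) => norm3 hyN hyyy hfix ha
  have hel := omZ_isEl R
  have hx1 : x ≠ 1 := by
    rintro rfl
    exact hxI I.one_mem
  have hconjne : ∀ e ∈ omZ R, e ≠ 1 → y * e * y⁻¹ ≠ e := fun e he he1 h => he1 (hfix e he.1 h)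
  have hconj1 : ∀ e : G, e ≠ 1 → y * e * y⁻¹ ≠ 1 := by
    intro e he h
    apply he
    have : e = y⁻¹ * (y * e * y⁻¹) * y := by group
    rw [this, h]
    group
  -- an element of `E ∩ I`
  have hex : ∃ e₀ ∈ omZ R, e₀ ∈ I ∧ e₀ ≠ 1 := by
    set w := y * x * y⁻¹ with hw
    have hwE : w ∈ omZ R := omZ_conj hyN hxE
    have hwx : w ≠ x := hconjne x hxE hx1
    by_cases hwI : w ∈ I
    · exact ⟨w, hwE, hwI, hconj1 x hx1⟩
    · refine ⟨x * w, mul_mem hxE hwE, hInd x hxE.1 w hwE.1 hxI hwI, ?_⟩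
      intro h
      apply hwx
      calc w = (x * x) * w := by rw [hel x hxE, one_mul]
        _ = x * (x * w) := by group
        _ = x := by rw [h, mul_one]
  obtain ⟨e₀, he₀E, he₀I, he₀1⟩ := hex
  set e₁ := y * e₀ * y⁻¹ with he₁
  have he₁E : e₁ ∈ omZ R := omZ_conj hyN he₀E
  have he₁1 : e₁ ≠ 1 := hconj1 e₀ he₀1
  have he₀₁ : e₀ ≠ e₁ := (hconjne e₀ he₀E he₀1).symm
  have hfour := four_elts hE4 hel he₀E he₁E he₀1 he₁1 he₀₁
  -- the norm
  have hn0 : e₀ * e₁ * (y * e₁ * y⁻¹) = 1 := hN he₀E.1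
  have he₂ : y * e₁ * y⁻¹ = e₀ * e₁ := by
    have h1 : (e₀ * e₁) * (e₀ * e₁) = 1 := hel _ (mul_mem he₀E he₁E)
    calc y * e₁ * y⁻¹ = ((e₀ * e₁) * (e₀ * e₁)) * (y * e₁ * y⁻¹) := by rw [h1, one_mul]
      _ = (e₀ * e₁) * (e₀ * e₁ * (y * e₁ * y⁻¹)) := by group
      _ = e₀ * e₁ := by rw [hn0, mul_one]
  have he₁I : e₁ ∉ I := by
    intro h
    apply hxI
    rcases hfour x hxE with h1 | h1 | h1 | h1
    · exact absurd h1 hx1
    · rw [h1]; exact he₀I
    · rw [h1]; exact h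
    · rw [h1]; exact mul_mem he₀I h
  have he₀₁I : e₀ * e₁ ∉ I := by
    intro h
    apply he₁I
    have : e₁ = e₀⁻¹ * (e₀ * e₁) := by group
    rw [this]
    exact mul_mem (inv_mem he₀I) h
  -- the conjugate of `I`
  set I₂ : Subgroup G := I.comap (MulAut.conj y⁻¹).toMonoidHom with hI₂
  have hI₂mem : ∀ r, r ∈ I₂ ↔ y⁻¹ * r * y ∈ I := by
    intro r
    rw [hI₂, Subgroup.mem_comap]
    simp [MulAut.conj_apply]
  have hyy : y * y = y⁻¹ := by
    calc y * y = (y * y * y) * y⁻¹ := by group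
      _ = y⁻¹ := by rw [hyyy, one_mul]
  have hyi : y⁻¹ * y⁻¹ = y := by
    calc y⁻¹ * y⁻¹ = y⁻¹ * y⁻¹ * (y * y * y) := by rw [hyyy, mul_one]
      _ = y := by group
  have hconjinv : ∀ e, y⁻¹ * e * y = y * (y * e * y⁻¹) * y⁻¹ := by
    intro e
    calc y⁻¹ * e * y = (y * y) * e * (y⁻¹ * y⁻¹) := by rw [hyy, hyi]
      _ = y * (y * e * y⁻¹) * y⁻¹ := by group
  have hRI₂ : ∀ r ∈ R, y⁻¹ * r * y ∈ R := fun r hr => conj_inv_mem_Nr hyN hr
  have hInd₂ : ∀ a ∈ R, ∀ b ∈ R, a ∉ I₂ → b ∉ I₂ → a * b ∈ I₂ := by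
    intro a ha b hb haI hbI
    rw [hI₂mem] at haI hbI ⊢
    have : y⁻¹ * (a * b) * y = (y⁻¹ * a * y) * (y⁻¹ * b * y) := by group
    rw [this]
    exact hInd _ (hRI₂ a ha) _ (hRI₂ b hb) haI hbI
  have he₀I₂ : e₀ ∉ I₂ := by
    rw [hI₂mem, hconjinv, ← he₁, he₂]
    exact he₀₁I
  have he₁I₂ : e₁ ∈ I₂ := by
    rw [hI₂mem, he₁]
    have : y⁻¹ * (y * e₀ * y⁻¹) * y = e₀ := by group
    rw [this]
    exact he₀I
  have he₀₁I₂ : e₀ * e₁ ∉ I₂ := by
    intro h
    apply he₀I₂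
    have : e₀ = (e₀ * e₁) * e₁⁻¹ := by group
    rw [this]
    exact mul_mem h (inv_mem he₁I₂)
  -- the intersection is trivial
  set I₁ := I ⊓ I₂ with hI₁
  have hI₁bot : I₁ = ⊥ := by
    by_contra hne
    have hI₁R : I₁ ≤ R := inf_le_left.trans hIR
    have hI₂R : I₂ ≤ R := by
      intro r hr
      have h1 := hIR ((hI₂mem r).mp hr)
      have h2 := conj_mem_Nr hyN h1
      have h3 : y * (y⁻¹ * r * y) * y⁻¹ = r := by group
      rwa [h3] at h2
    have hnorm : R ≤ Nr I₁ := by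
      intro r hr
      apply mem_Nr_of_conj
      intro i hi
      exact Subgroup.mem_inf.mpr ⟨conj_mem_of_index hP hL hInd hIR hr (Subgroup.mem_inf.mp hi).1,
        conj_mem_of_index hP hL hInd₂ hI₂R hr (Subgroup.mem_inf.mp hi).2⟩
    obtain ⟨i, hi, hiE, hi1⟩ := exists_central_inv_of_normal hR2 hI₁R hnorm hne
    obtain ⟨hi1', hi2'⟩ := Subgroup.mem_inf.mp hi
    rcases hfour i hiE with h1 | h1 | h1 | h1
    · exact hi1 h1
    · rw [h1] at hi2'
      exact he₀I₂ hi2'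
    · rw [h1] at hi1'
      exact he₁I hi1'
    · rw [h1] at hi1'
      exact he₀₁I hi1'
  -- conclusion
  have hfinal : ∀ r ∈ R, ∀ e ∈ omZ R, (r ∈ I ↔ e ∈ I) → (r ∈ I₂ ↔ e ∈ I₂) → r ∈ omZ R := by
    intro r hr e he h1 h2
    have h3 : r * e ∈ I := by
      by_cases hrI : r ∈ I
      · exact mul_mem hrI (h1.mp hrI)
      · exact hInd r hr e he.1 hrI (fun h => hrI (h1.mpr h))
    have h4 : r * e ∈ I₂ := by
      by_cases hrI : r ∈ I₂
      · exact mul_mem hrI (h2.mp hrI)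
      · exact hInd₂ r hr e he.1 hrI (fun h => hrI (h2.mpr h))
    have h5 : r * e ∈ I₁ := Subgroup.mem_inf.mpr ⟨h3, h4⟩
    rw [hI₁bot, Subgroup.mem_bot] at h5
    have h6 : r = e⁻¹ := eq_inv_of_mul_eq_one_left h5
    rw [h6]
    exact inv_mem he
  intro r hr
  by_cases hrI : r ∈ I <;> by_cases hrI₂ : r ∈ I₂
  · exact hfinal r hr 1 (omZ R).one_mem (by simp [hrI, I.one_mem]) (by simp [hrI₂, I₂.one_mem])
  · exact hfinal r hr e₀ he₀E (by simp [hrI, he₀I]) (by simp [hrI₂, he₀I₂])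
  · exact hfinal r hr e₁ he₁E (by simp [hrI, he₁I]) (by simp [hrI₂, he₁I₂])
  · exact hfinal r hr (e₀ * e₁) (mul_mem he₀E he₁E) (by simp [hrI, he₀₁I]) (by simp [hrI₂, he₀₁I₂])

end Loc

end Cfsg.Agent.Lib.NoFive
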