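import Mathlib
import Cfsg.Agent.Lib.NoFiveTame4

/-!
# Tame subgroups.
-/

set_option autoImplicit false

namespace Cfsg.Agent.Lib.NoFive

universe u

open scoped commutatorElement

variable {G : Type u} [Group G] [Finite G]

/-- Tame subgroups of the Sylow 2-subgroup `T`. -/
structure Tame (T : Sylow 2 G) (R : Subgroup G) : Prop where
  ne_bot : R ≠ ⊥
  le : R ≤ (T : Subgroup G)
  ne : R ≠ (T : Subgroup G)
  O2 : HasO2 R

variable {T : Sylow 2 G} {R : Subgroup G}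

lemma Tame.two (h : Tame T R) : IsPGroup 2 R := T.isPGroup'.to_le h.le

lemma Tame.exists_v (h : Tame T R) : ∃ v ∈ (T : Subgroup G), v ∈ Nr R ∧ v ∉ R :=
  exists_normalizer_gt T.isPGroup' h.le h.ne

lemma Tame.exists_loc (hP : IsP G)
    (hIH : ∀ (W : Type u) [Group W] [Finite W], Nat.card W < Nat.card G → IsP W →
      3 ≤ (Nat.card W).primeFactors.card → Nat.card W = 168) (h : Tame T R) :
    ∃ y, LocData (Nr R) R y := by
  obtain ⟨v, -, hvN, hvR⟩ := h.exists_v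
  exact exists_locData hP hIH Subgroup.le_normalizer le_rfl h.two h.ne_bot h.O2
    (fun he => hvR (he ▸ hvN))

/-- The centralizer of a tame subgroup lies in it. -/
lemma Tame.centralizer_le (hP : IsP G) (h : Tame T R) : Subgroup.centralizer (R : Set G) ≤ R := by
  obtain ⟨i, hi, -, hi1⟩ := exists_central_inv_of_normal h.two le_rfl Subgroup.le_normalizer h.ne_bot
  have hiinv : i ∈ R := hi
  apply h.O2
  · intro c hc
    apply mem_Nr_of_conj
    intro r hr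
    have := Subgroup.mem_centralizer_iff.mp hc r hr
    have e : c * r * c⁻¹ = r := by
      rw [← this]
      group
    rw [e]
    exact hr
  · intro g hg
    apply mem_Nr_of_conj
    intro c hc
    rw [Subgroup.mem_centralizer_iff]
    intro r hr
    have h1 := Subgroup.mem_centralizer_iff.mp hc _ (conj_inv_mem_Nr hg hr)
    calc r * (g * c * g⁻¹) = g * ((g⁻¹ * r * g) * c) * g⁻¹ := by group
      _ = g * (c * (g⁻¹ * r * g)) * g⁻¹ := by rw [h1]
      _ = g * c * g⁻¹ * r := by group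
  · have h1 := hP.isPGroup_centralizer hi1 (two_of_mem h.two hi)
    apply h1.to_le
    intro c hc
    rw [Subgroup.mem_centralizer_singleton_iff]
    exact (Subgroup.mem_centralizer_iff.mp hc i hiinv).symm

/-- A central involution of `T` lies in `Ω₁Z(R)`. -/
lemma Tame.z_mem (hP : IsP G) (h : Tame T R) {z : G} (hz : z ∈ omZ (T : Subgroup G)) : z ∈ omZ R := by
  have h1 : z ∈ R := by
    apply h.centralizer_le hP
    rw [Subgroup.mem_centralizer_iff]
    intro r hr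
    exact (hz.2.1 r (h.le hr)).symm
  exact ⟨h1, fun r hr => hz.2.1 r (h.le hr), hz.2.2⟩

/-- Inclusion of Sylow subgroups is equality. -/
lemma sylow_eq_of_le {X Y : Sylow 2 G} (h : (X : Subgroup G) ≤ Y) : X = Y :=
  Sylow.ext (Subgroup.eq_of_le_of_card_ge h (le_of_eq (Nat.card_congr (Sylow.equiv Y X).toEquiv)))

/-- Existence of tame subgroups through every element in another Sylow subgroup. -/
theorem exists_tame (hP : IsP G) (T : Sylow 2 G) {t : G} (ht : t ∈ (T : Subgroup G)) (ht1 : t ≠ 1)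
    {X₀ : Sylow 2 G} (hX₀ : X₀ ≠ T) (htX₀ : t ∈ (X₀ : Subgroup G)) : ∃ R, Tame T R ∧ t ∈ R := by
  classical
  obtain ⟨X, ⟨hXT, htX⟩, hmax⟩ := Set.exists_max_image {X : Sylow 2 G | X ≠ T ∧ t ∈ (X : Subgroup G)}
    (fun X => Nat.card ↥((T : Subgroup G) ⊓ (X : Subgroup G))) (Set.toFinite _) ⟨X₀, hX₀, htX₀⟩
  set R := (T : Subgroup G) ⊓ (X : Subgroup G) with hR
  have htR : t ∈ R := Subgroup.mem_inf.mpr ⟨ht, htX⟩
  have hRneT : R ≠ T := by
    intro h
    apply hXT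
    symm
    apply sylow_eq_of_le
    rw [← h]
    exact inf_le_right
  have hRneX : R ≠ X := by
    intro h
    apply hXT
    apply sylow_eq_of_le
    rw [← h]
    exact inf_le_left
  refine ⟨R, ⟨?_, inf_le_left, hRneT, ?_⟩, htR⟩
  · intro h
    rw [h, Subgroup.mem_bot] at htR
    exact ht1 htR
  -- `O₂(N(R)) = R`
  intro Q' hQ'L hLQ' hQ'2
  set L := Nr R with hL
  have hRT : R ≤ (T : Subgroup G) := inf_le_left
  have hRL : R ≤ L := Subgroup.le_normalizer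
  -- a 2-subgroup of `L` containing `T ∩ L` lies in `T`
  have hclaim : ∀ U : Subgroup G, IsPGroup 2 U → (T : Subgroup G) ⊓ L ≤ U → U ≤ (T : Subgroup G) := by
    intro U hU hTU
    obtain ⟨Z, hZ⟩ := hU.exists_le_sylow
    by_cases hZT : Z = T
    · rw [← hZT]
      exact hZ
    · exfalso
      have htZ : t ∈ (Z : Subgroup G) := hZ (hTU (Subgroup.mem_inf.mpr ⟨ht, hRL htR⟩))
      have hle := hmax Z ⟨hZT, htZ⟩
      obtain ⟨v, hvT, hvN, hvR⟩ := exists_normalizer_gt T.isPGroup' hRT hRneT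
      have hRZ : R ≤ (T : Subgroup G) ⊓ (Z : Subgroup G) :=
        le_inf hRT (fun r hr => hZ (hTU (Subgroup.mem_inf.mpr ⟨hRT hr, hRL hr⟩)))
      have heq : R = (T : Subgroup G) ⊓ (Z : Subgroup G) := Subgroup.eq_of_le_of_card_ge hRZ hle
      apply hvR
      rw [heq]
      exact Subgroup.mem_inf.mpr ⟨hvT, hZ (hTU (Subgroup.mem_inf.mpr ⟨hvT, hvN⟩))⟩
  -- Sylow subgroups of `L`
  haveI : Fact (Nat.Prime 2) := ⟨Nat.prime_two⟩
  have hTL2 : IsPGroup 2 (((T : Subgroup G) ⊓ L).subgroupOf L) := by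
    apply isPGroup_of_two
    intro g hg
    obtain ⟨k, hk⟩ := two_of_mem T.isPGroup' (Subgroup.mem_inf.mp (Subgroup.mem_subgroupOf.mp hg)).1
    exact ⟨k, by rw [← hk, Subgroup.orderOf_coe]⟩
  have hXL2 : IsPGroup 2 (((X : Subgroup G) ⊓ L).subgroupOf L) := by
    apply isPGroup_of_two
    intro g hg
    obtain ⟨k, hk⟩ := two_of_mem X.isPGroup' (Subgroup.mem_inf.mp (Subgroup.mem_subgroupOf.mp hg)).1
    exact ⟨k, by rw [← hk, Subgroup.orderOf_coe]⟩
  obtain ⟨S₀, hS₀⟩ := hTL2.exists_le_sylow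
  obtain ⟨S₁, hS₁⟩ := hXL2.exists_le_sylow
  have hS₀T : ∀ s : L, s ∈ (S₀ : Subgroup L) → (s : G) ∈ (T : Subgroup G) := by
    have hU : IsPGroup 2 ((S₀ : Subgroup L).map L.subtype) := S₀.isPGroup'.map _
    have h1 : (T : Subgroup G) ⊓ L ≤ (S₀ : Subgroup L).map L.subtype := by
      intro g hg
      exact ⟨⟨g, (Subgroup.mem_inf.mp hg).2⟩, hS₀ (Subgroup.mem_subgroupOf.mpr hg), rfl⟩
    have h2 := hclaim _ hU h1
    intro s hs
    exact h2 ⟨s, hs, rfl⟩
  obtain ⟨g, hg⟩ := MulAction.exists_smul_eq L S₀ S₁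
  have hgL : (g : G) ∈ L := g.2
  -- `X ∩ L` lies in the conjugate of `T` by `g`
  have hXg : ∀ x ∈ (X : Subgroup G) ⊓ L, (g : G)⁻¹ * x * g ∈ (T : Subgroup G) := by
    intro x hx
    have h1 : (⟨x, (Subgroup.mem_inf.mp hx).2⟩ : L) ∈ (S₁ : Subgroup L) := hS₁ (Subgroup.mem_subgroupOf.mpr hx)
    rw [← hg, Sylow.coe_subgroup_smul, Subgroup.mem_pointwise_smul_iff_inv_smul_mem] at h1
    have h2 := hS₀T _ h1
    simpa [MulAut.smul_def] using h2
  have hgT : (g : G) • T ≠ T := by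
    intro h
    have hgN : (g : G)⁻¹ ∈ Nz T := inv_mem (mem_Nz_iff.mpr h)
    obtain ⟨v, hvX, hvN, hvR⟩ := exists_normalizer_gt X.isPGroup' (inf_le_right : R ≤ (X : Subgroup G)) hRneX
    apply hvR
    refine Subgroup.mem_inf.mpr ⟨?_, hvX⟩
    have h1 := hXg v (Subgroup.mem_inf.mpr ⟨hvX, hvN⟩)
    have h2 := conj_mem_of_Nz (inv_mem hgN) h1
    simpa [mul_assoc] using h2
  -- normal 2-subgroups lie in all Sylow subgroups of `L`
  have hnorm : ∀ N : Subgroup G, N ≤ L → L ≤ Nr N → IsPGroup 2 N → N ≤ (T : Subgroup G) ⊓ ((g : G) • T : Sylow 2 G) := by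
    intro N hNL hLN hN2
    have h1 : N ≤ (T : Subgroup G) := by
      have hU : IsPGroup 2 (N ⊔ ((T : Subgroup G) ⊓ L) : Subgroup G) := by
        apply IsPGroup.to_sup_of_normal_left' hN2 (T.isPGroup'.to_le inf_le_left)
        exact inf_le_right.trans hLN
      have := hclaim _ hU le_sup_right
      exact le_sup_left.trans this
    refine le_inf h1 ?_
    intro n hn
    rw [mem_smul_iff]
    exact h1 (conj_inv_mem_Nr (hLN hgL) hn)
  have hQ1 := hnorm Q' hQ'L hLQ' hQ'2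
  have hR1 := hnorm R hRL le_rfl (T.isPGroup'.to_le hRT)
  have hle := hmax ((g : G) • T) ⟨hgT, hR1 htR |> fun h => (Subgroup.mem_inf.mp h).2⟩
  have heq : R = (T : Subgroup G) ⊓ ((g : G) • T : Sylow 2 G) := Subgroup.eq_of_le_of_card_ge hR1 hle
  rw [heq]
  exact hQ1

/-- The small tame subgroups. -/
structure SmallT (T : Sylow 2 G) (R : Subgroup G) (y : G) : Prop where
  tame : Tame T R
  loc : LocData (Nr R) R y
  card : Nat.card (omZ R) = 4

section Small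

variable {y : G} (hP : IsP G) (hS : SmallT T R y) {z : G} (hz : z ∈ omZ (T : Subgroup G)) (hz1 : z ≠ 1)

include hP hS

lemma SmallT.y3 : orderOf y = 3 := orderOf_y_of_card_four hP hS.loc hS.card

lemma SmallT.yyy : y * y * y = 1 := y3_of_order hS.loc (hS.y3 hP)

lemma SmallT.fix : ∀ c ∈ R, y * c * y⁻¹ = c → c = 1 := fix_of_loc hP hS.loc hS.tame.two

/-- 2-elements of `N(R)` have their square in `R`. -/
lemma SmallT.sq_mem {v : G} (hv : v ∈ Nr R) (h2 : ∃ k : ℕ, orderOf v = 2 ^ k) : v * v ∈ R :=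
  hS.loc.s3 (hS.y3 hP) v hv h2

/-- Index two in `T ∩ N(R)`. -/
lemma SmallT.index {a b : G} (haT : a ∈ (T : Subgroup G)) (hbT : b ∈ (T : Subgroup G)) (ha : a ∈ Nr R) (hb : b ∈ Nr R)
    (haR : a ∉ R) (hbR : b ∉ R) : a * b ∈ R :=
  hS.loc.prodm a ha b hb haR hbR (hS.sq_mem hP ha (two_of_mem T.isPGroup' haT))
    (hS.sq_mem hP hb (two_of_mem T.isPGroup' hbT)) (two_of_mem T.isPGroup' (mul_mem haT hbT))

include hz hz1

/-- The centralizer of `v` in `E`. -/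
lemma SmallT.fix_z {m : G} (hmT : m ∈ (T : Subgroup G)) (hm : m ∈ Nr R) (hmR : m ∉ R) {e : G} (he : e ∈ omZ R)
    (he1 : e ≠ 1) (hc : m * e = e * m) : e = z := by
  have h1 := card_fix_sq hP hS.loc hm hmR (hS.sq_mem hP hm (two_of_mem T.isPGroup' hmT))
  rw [hS.card] at h1
  have h2 : Nat.card ↥(omZ R ⊓ Subgroup.centralizer {m}) ≤ 2 := by
    by_contra hc'
    push Not at hc'
    have : 3 * 3 ≤ Nat.card ↥(omZ R ⊓ Subgroup.centralizer {m}) * Nat.card ↥(omZ R ⊓ Subgroup.centralizer {m}) :=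
      Nat.mul_le_mul hc' hc'
    omega
  refine eq_of_card_le_two h2 ?_ ?_ he1 hz1
  · refine Subgroup.mem_inf.mpr ⟨he, ?_⟩
    rw [Subgroup.mem_centralizer_singleton_iff]
    exact hc.symm
  · refine Subgroup.mem_inf.mpr ⟨hS.tame.z_mem hP hz, ?_⟩
    rw [Subgroup.mem_centralizer_singleton_iff]
    exact hz.2.1 m hmT

/-- The central involution is unique. -/
lemma SmallT.z_unique {z' : G} (hz' : z' ∈ omZ (T : Subgroup G)) (hz'1 : z' ≠ 1) : z' = z := by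
  obtain ⟨v, hvT, hvN, hvR⟩ := hS.tame.exists_v
  exact hS.fix_z hP hz hz1 hvT hvN hvR (hS.tame.z_mem hP hz') hz'1 (hz'.2.1 v hvT).symm

/-- `x` determines `R` inside `T`. -/
lemma SmallT.cent_le {x : G} (hx : x ∈ omZ R) (hx1 : x ≠ 1) (hxz : x ≠ z) {t : G} (ht : t ∈ (T : Subgroup G))
    (htx : t * x = x * t) : t ∈ R := by
  by_contra htR
  set I := (T : Subgroup G) ⊓ Subgroup.centralizer {x} with hI
  have hRI : R ≤ I := by
    intro r hr
    refine Subgroup.mem_inf.mpr ⟨hS.tame.le hr, ?_⟩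
    rw [Subgroup.mem_centralizer_singleton_iff]
    exact (hx.2.1 r hr).symm
  have hne : R ≠ I := by
    intro h
    apply htR
    rw [h]
    refine Subgroup.mem_inf.mpr ⟨ht, ?_⟩
    rw [Subgroup.mem_centralizer_singleton_iff]
    exact htx
  obtain ⟨v, hvI, hvN, hvR⟩ := exists_normalizer_gt (T.isPGroup'.to_le inf_le_left) hRI hne
  have hvT := (Subgroup.mem_inf.mp hvI).1
  have hvx : v * x = x * v := Subgroup.mem_centralizer_singleton_iff.mp (Subgroup.mem_inf.mp hvI).2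
  exact hxz (hS.fix_z hP hz hz1 hvT hvN hvR hx hx1 hvx)

/-- The action on the other elements of `E`. -/
lemma SmallT.move {x : G} (hx : x ∈ omZ R) (hx1 : x ≠ 1) (hxz : x ≠ z) {t : G} (ht : t ∈ (T : Subgroup G))
    (htN : t ∈ Nr R) : t * x * t⁻¹ = x ∨ t * x * t⁻¹ = x * z := by
  have hzE := hS.tame.z_mem hP hz
  have hf := four_elts hS.card (omZ_isEl R) hx hzE hx1 hz1 hxz
  have h1 : t * x * t⁻¹ ≠ 1 := by
    intro h
    apply hx1
    have : x = t⁻¹ * (t * x * t⁻¹) * t := by group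
    rw [this, h]
    group
  have h2 : t * x * t⁻¹ ≠ z := by
    intro h
    apply hxz
    have e1 : t⁻¹ * z = z * t⁻¹ := (hz.2.1 _ (inv_mem ht)).symm
    calc x = t⁻¹ * (t * x * t⁻¹) * t := by group
      _ = t⁻¹ * z * t := by rw [h]
      _ = z * t⁻¹ * t := by rw [e1]
      _ = z := by group
  rcases hf _ (omZ_conj htN hx) with h3 | h3 | h3 | h3
  · exact absurd h3 h1
  · exact Or.inl h3
  · exact absurd h3 h2
  · exact Or.inr h3

/-- An element of `E` other than `1, z`. -/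
lemma SmallT.exists_x : ∃ x ∈ omZ R, x ≠ 1 ∧ x ≠ z := by
  have hzE := hS.tame.z_mem hP hz
  refine ⟨y * z * y⁻¹, omZ_conj hS.loc.mem hzE, ?_, ?_⟩
  · intro h
    apply hz1
    have : z = y⁻¹ * (y * z * y⁻¹) * y := by group
    rw [this, h]
    group
  · intro h
    exact hz1 (hS.fix hP z hzE.1 h)

end Small

/-- Two small subgroups in the same `T ∩ N(R)`. -/
theorem two_small_aux (hP : IsP G) {R₂ : Subgroup G} {y y₂ : G} (hS : SmallT T R y) (hS₂ : SmallT T R₂ y₂)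
    (hT₀ : (T : Subgroup G) ⊓ Nr R = (T : Subgroup G) ⊓ Nr R₂) (hne : R ≠ R₂) {z : G}
    (hz : z ∈ omZ (T : Subgroup G)) (hz1 : z ≠ 1) {x₂ : G} (hx₂ : x₂ ∈ omZ R₂) (hx₂1 : x₂ ≠ 1) (hx₂z : x₂ ≠ z) :
    x₂ ∉ R := by
  intro hx₂R
  have hRT₀ : ∀ r ∈ R, r ∈ (T : Subgroup G) ⊓ Nr R₂ := by
    intro r hr
    rw [← hT₀]
    exact Subgroup.mem_inf.mpr ⟨hS.tame.le hr, Subgroup.le_normalizer hr⟩
  have hzE := hS.tame.z_mem hP hz
  have hcomm := no3 hS.loc.mem (hS.yyy hP) (hS.fix hP) hx₂R hzE.1 hzE.2.1 hzE.2.2 (by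
    intro g hg
    obtain ⟨h1, h2⟩ := Subgroup.mem_inf.mp (hRT₀ g hg)
    exact hS₂.move hP hz hz1 hx₂ hx₂1 hx₂z h1 h2)
  have hRR₂ : R ≤ R₂ := fun r hr => hS₂.cent_le hP hz hz1 hx₂ hx₂1 hx₂z (hS.tame.le hr) (hcomm r hr)
  -- but then `R = R₂`
  apply hne
  apply le_antisymm hRR₂
  by_contra hc
  obtain ⟨a, haR₂, haR⟩ := SetLike.not_le_iff_exists.mp hc
  obtain ⟨v, hvT, hvN, hvR₂⟩ := hS₂.tame.exists_v
  have hv0 : v ∈ (T : Subgroup G) ⊓ Nr R := by
    rw [hT₀]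
    exact Subgroup.mem_inf.mpr ⟨hvT, hvN⟩
  have ha0 : a ∈ (T : Subgroup G) ⊓ Nr R := by
    rw [hT₀]
    exact Subgroup.mem_inf.mpr ⟨hS₂.tame.le haR₂, Subgroup.le_normalizer haR₂⟩
  have h1 := hS.index hP (Subgroup.mem_inf.mp ha0).1 hvT (Subgroup.mem_inf.mp ha0).2 (Subgroup.mem_inf.mp hv0).2 haR
    (fun h => hvR₂ (hRR₂ h))
  apply hvR₂
  have h2 : v = a⁻¹ * (a * v) := by group
  rw [h2]
  exact mul_mem (inv_mem haR₂) (hRR₂ h1)

/-- Two small subgroups in the same `T ∩ N(R)` are four-groups. -/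
theorem two_small (hP : IsP G) {R₂ : Subgroup G} {y y₂ : G} (hS : SmallT T R y) (hS₂ : SmallT T R₂ y₂)
    (hT₀ : (T : Subgroup G) ⊓ Nr R = (T : Subgroup G) ⊓ Nr R₂) (hne : R ≠ R₂) {z : G}
    (hz : z ∈ omZ (T : Subgroup G)) (hz1 : z ≠ 1) : R ≤ omZ R := by
  obtain ⟨x, hx, hx1, hxz⟩ := hS.exists_x hP hz hz1
  have hxR₂ : x ∉ R₂ := two_small_aux hP hS₂ hS hT₀.symm hne.symm hz hz1 hx hx1 hxz
  refine le_omZ_of_index_two hP hS.loc hS.tame.two hS.card (I := R ⊓ R₂) inf_le_left ?_ hx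
    (fun h => hxR₂ (Subgroup.mem_inf.mp h).2)
  intro a ha b hb haI hbI
  have hRT₀ : ∀ r ∈ R, r ∈ (T : Subgroup G) ⊓ Nr R₂ := by
    intro r hr
    rw [← hT₀]
    exact Subgroup.mem_inf.mpr ⟨hS.tame.le hr, Subgroup.le_normalizer hr⟩
  have ha₂ : a ∉ R₂ := fun h => haI (Subgroup.mem_inf.mpr ⟨ha, h⟩)
  have hb₂ : b ∉ R₂ := fun h => hbI (Subgroup.mem_inf.mpr ⟨hb, h⟩)
  obtain ⟨h1, h2⟩ := Subgroup.mem_inf.mp (hRT₀ a ha)
  obtain ⟨h3, h4⟩ := Subgroup.mem_inf.mp (hRT₀ b hb)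
  exact Subgroup.mem_inf.mpr ⟨mul_mem ha hb, hS₂.index hP h1 h3 h2 h4 ha₂ hb₂⟩

end Cfsg.Agent.Lib.NoFive
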