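import Mathlib
import Cfsg.Agent.Lib.NoFiveTame6

/-!
# Tame subgroups: generation, and the existence of four-groups.
-/

set_option autoImplicit false

namespace Cfsg.Agent.Lib.NoFive

universe u

variable {G : Type u} [Group G] [Finite G] {T : Sylow 2 G} {R : Subgroup G}

section

variable (hP : IsP G)
    (hIH : ∀ (W : Type u) [Group W] [Finite W], Nat.card W < Nat.card G → IsP W →
      3 ≤ (Nat.card W).primeFactors.card → Nat.card W = 168)

include hP hIH

/-- `T` is self-normalizing. -/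
theorem Tame.self_normalizing (h : Tame T R) : Nz T ≤ (T : Subgroup G) := by
  obtain ⟨y, hL⟩ := h.exists_loc hP hIH
  intro g hgN
  rcases hP.two_or_odd g with h2 | hodd
  · exact two_mem_of_Nz h2 hgN
  by_contra hgT
  have hg1 : g ≠ 1 := by
    rintro rfl
    exact hgT (one_mem _)
  by_cases h4 : Nat.card (omZ R) ≤ 4
  · have hS : SmallT T R y := ⟨h, hL, card_four_of_le hP hL h.two h.ne_bot h4⟩
    obtain ⟨z, hz, hz1⟩ := h.exists_z
    have h1 : g * z * g⁻¹ ∈ omZ (T : Subgroup G) := omZ_conj hgN hz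
    have h2 : g * z * g⁻¹ ≠ 1 := by
      intro h3
      apply hz1
      have : z = g⁻¹ * (g * z * g⁻¹) * g := by group
      rw [this, h3]
      group
    have h3 := hS.z_unique hP hz hz1 h1 h2
    have h5 : z * g = g * z := by
      calc z * g = g * z * g⁻¹ * g := by rw [h3]
        _ = g * z := by group
    rcases hP.comm_two_odd h5 (omZ_two hz) hodd with h6 | h6
    · exact hz1 h6
    · exact hg1 h6
  · obtain ⟨hTR, hJ⟩ := big_case hP hIH T.isPGroup' h.le h.ne_bot h.O2 hL h4
    obtain ⟨v, hvT, hvN, hvR⟩ := h.exists_v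
    have hgJ : g ∈ Nr (Jt (T : Subgroup G)) := by
      apply mem_Nr_Jt
      intro M hM
      rintro _ ⟨a, ha, rfl⟩
      exact conj_mem_of_Nz hgN (hM.1 ha)
    have hgR : g ∈ Nr R := hJ ▸ hgJ
    obtain ⟨i, q, hq, he⟩ := hL.comm v hvN g hgR
    have hc : v * g * v⁻¹ * g⁻¹ ∈ (T : Subgroup G) := by
      have : v * g * v⁻¹ * g⁻¹ = v * (g * v⁻¹ * g⁻¹) := by group
      rw [this]
      exact mul_mem hvT (conj_mem_of_Nz hgN (inv_mem hvT))
    have hyi : y ^ i ∈ (T : Subgroup G) := by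
      have : y ^ i = (v * g * v⁻¹ * g⁻¹) * q⁻¹ := by
        rw [he]
        group
      rw [this]
      exact mul_mem hc (inv_mem (h.le hq))
    have hyi1 : y ^ i = 1 := eq_one_of_two_of_odd (two_of_mem T.isPGroup' hyi) (odd_pow hL.odd i)
    have hcR : v * g * v⁻¹ * g⁻¹ ∈ R := by
      rw [he, hyi1, one_mul]
      exact hq
    exact hvR (comm_modG hP Subgroup.le_normalizer le_rfl h.two hvN hgR (two_of_mem T.isPGroup' hvT) hodd hg1 hcR)

/-- `T` is generated by its tame subgroups. -/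
theorem Tame.gen [IsSimpleGroup G] (hna : ¬ ∀ a b : G, a * b = b * a) (h : Tame T R) :
    sSup {R' | Tame T R'} = (T : Subgroup G) := by
  apply focal_cover hna T (h.self_normalizing hP hIH)
  · exact sSup_le (fun R' h' => h'.le)
  · intro w hw X hX hwX
    by_cases hw1 : w = 1
    · rw [hw1]
      exact one_mem _
    · obtain ⟨R', hR', hwR'⟩ := exists_tame hP T hw hw1 hX hwX
      exact (le_sSup hR') hwR'

/-- There is a small tame subgroup. -/
theorem Tame.exists_small [IsSimpleGroup G] (hna : ¬ ∀ a b : G, a * b = b * a) (h : Tame T R) :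
    ∃ R' y, SmallT T R' y := by
  by_contra hc
  push Not at hc
  have hbig : ∀ R', Tame T R' → ¬ Nat.card (omZ R') ≤ 4 := by
    intro R' h' h4
    obtain ⟨y, hL⟩ := h'.exists_loc hP hIH
    exact hc R' y ⟨h', hL, card_four_of_le hP hL h'.two h'.ne_bot h4⟩
  have hN : ∀ R', Tame T R' → Nr (Jt (T : Subgroup G)) = Nr R' := by
    intro R' h'
    obtain ⟨y, hL⟩ := h'.exists_loc hP hIH
    exact (big_case hP hIH T.isPGroup' h'.le h'.ne_bot h'.O2 hL (hbig R' h')).2
  have hle : ∀ R', Tame T R' → R' ≤ R := by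
    intro R' h'
    apply h.O2 R'
    · rw [← hN R h, hN R' h']
      exact Subgroup.le_normalizer
    · rw [← hN R h, hN R' h']
    · exact h'.two
  apply h.ne
  apply le_antisymm h.le
  rw [← h.gen hP hIH hna]
  exact sSup_le hle

/-- There is a tame four-group. -/
theorem Tame.exists_V4 [IsSimpleGroup G] (hna : ¬ ∀ a b : G, a * b = b * a) (h : Tame T R) :
    ∃ R' y, SmallT T R' y ∧ R' ≤ omZ R' := by
  obtain ⟨R₁, y₁, hS⟩ := h.exists_small hP hIH hna
  by_cases hTN : (T : Subgroup G) ≤ Nr R₁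
  swap
  · exact ⟨R₁, y₁, hS, small_not_top hP hIH hS hTN⟩
  have hex : ∃ R', Tame T R' ∧ ¬ R' ≤ R₁ := by
    by_contra hc
    push Not at hc
    apply hS.tame.ne
    apply le_antisymm hS.tame.le
    rw [← h.gen hP hIH hna]
    exact sSup_le hc
  obtain ⟨R', h', hnot⟩ := hex
  obtain ⟨y', hL'⟩ := h'.exists_loc hP hIH
  obtain ⟨z, hz, hz1⟩ := h'.exists_z
  by_cases h4 : Nat.card (omZ R') ≤ 4
  · have hS' : SmallT T R' y' := ⟨h', hL', card_four_of_le hP hL' h'.two h'.ne_bot h4⟩
    by_cases hTN' : (T : Subgroup G) ≤ Nr R'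
    · refine ⟨R₁, y₁, hS, two_small hP hS hS' ?_ ?_ hz hz1⟩
      · rw [inf_eq_left.mpr hTN, inf_eq_left.mpr hTN']
      · rintro rfl
        exact hnot le_rfl
    · exact ⟨R', y', hS', small_not_top hP hIH hS' hTN'⟩
  · exfalso
    have hTN' := (big_case hP hIH T.isPGroup' h'.le h'.ne_bot h'.O2 hL' h4).1
    exact big_small_false hP hS hTN h' hTN' h4 hnot hz hz1

end

end Cfsg.Agent.Lib.NoFive
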