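import Mathlib
import Cfsg.Agent.Lib.TICentMain
import Cfsg.Agent.Lib.BurnsidePQ
import Cfsg.Agent.Lib.DefectZero
import Cfsg.Agent.Lib.CliffDvd
import Cfsg.Agent.Lib.GlaubAbove
import Cfsg.Agent.S4464

/-!
# Groups all of whose nonlinear irreducible characters have prime degree are solvable
-/

set_option autoImplicit false
set_option linter.style.haveILetI false
set_option linter.unusedSectionVars false
set_option linter.unusedVariables false

namespace Cfsg.Agent.Lib.NonlinPrime

open Cfsg Cfsg.Agent.Lib.CharBasic Subgroup Cfsg.Agent.Lib.DefectOne Cfsg.Agent.Lib.CharKernel Cfsg.Agent.Lib.TICent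
open scoped ComplexConjugate

universe u

/-- The combinatorial core. -/
theorem abstract_false {I J : Type*} [Fintype I] [DecidableEq I] [Fintype J] [DecidableEq J] (t : ℕ) (j₀ : J)
    (u : J → I → ℤ) (d : I → ℤ) (i₀ : I) (hi₀ : ∀ j, u j i₀ = -1) (hd0 : d i₀ = 1) (hd2 : ∀ i, i ≠ i₀ → 2 ≤ d i)
    (hu : ∀ j k, ∑ i, u j i * u k i = (t : ℤ) + if j = k then 1 else 0)
    (hz : ∀ j, ∑ i, d i * u j i = 0)
    (hconst : ∀ i, i ≠ i₀ → (∀ j k, u j i = u k i) → ∀ j, u j i = 0) : False := by
  classical
  have hdpos : ∀ i, 0 < d i := by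
    intro i
    by_cases h : i = i₀
    · rw [h, hd0]
      norm_num
    · have := hd2 i h
      omega
  have hpair : ∀ k, k ≠ j₀ → ∃ a b, a ≠ b ∧ u k a - u j₀ a = 1 ∧ u k b - u j₀ b = -1 ∧
      ∀ i, i ≠ a → i ≠ b → u k i - u j₀ i = 0 := by
    intro k hk
    have hn : ∑ i, (u k i - u j₀ i) * (u k i - u j₀ i) = 2 := by
      have h1 : ∑ i, (u k i - u j₀ i) * (u k i - u j₀ i) = ∑ i, u k i * u k i - ∑ i, u k i * u j₀ i -
          ∑ i, u j₀ i * u k i + ∑ i, u j₀ i * u j₀ i := by
        rw [← Finset.sum_sub_distrib, ← Finset.sum_sub_distrib, ← Finset.sum_add_distrib]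
        refine Finset.sum_congr rfl fun i _ => ?_
        ring
      rw [h1, hu, hu, hu, hu, if_pos rfl, if_pos rfl, if_neg hk, if_neg hk.symm]
      ring
    have h0 : ∑ i, d i * (u k i - u j₀ i) = 0 := by
      have h1 : ∑ i, d i * (u k i - u j₀ i) = ∑ i, d i * u k i - ∑ i, d i * u j₀ i := by
        rw [← Finset.sum_sub_distrib]
        refine Finset.sum_congr rfl fun i _ => ?_
        ring
      rw [h1, hz, hz, sub_zero]
    exact exists_oriented_pair (fun i => u k i - u j₀ i) d hdpos hn h0
  haveI : Nonempty I := ⟨i₀⟩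
  choose! α β hαβ hα hβ hrest using hpair
  have hdeq : ∀ k, k ≠ j₀ → d (α k) = d (β k) := by
    intro k hk
    have h1 : ∑ i, d i * (u k i - u j₀ i) = d (α k) - d (β k) := by
      rw [Fintype.sum_eq_add (α k) (β k) (hαβ k hk)]
      · rw [hα k hk, hβ k hk]
        ring
      · intro i hi
        rw [hrest k hk i hi.1 hi.2, mul_zero]
    have h2 : ∑ i, d i * (u k i - u j₀ i) = ∑ i, d i * u k i - ∑ i, d i * u j₀ i := by
      rw [← Finset.sum_sub_distrib]
      refine Finset.sum_congr rfl fun i _ => ?_
      ring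
    rw [h2, hz, hz] at h1
    omega
  have hinter : ∀ k l, k ≠ j₀ → l ≠ j₀ → d (α k) = d (α l) := by
    intro k l hk hl
    by_cases hkl : k = l
    · rw [hkl]
    have h1 : ∑ i, (u k i - u j₀ i) * (u l i - u j₀ i) = 1 := by
      have h2 : ∑ i, (u k i - u j₀ i) * (u l i - u j₀ i) = ∑ i, u k i * u l i - ∑ i, u k i * u j₀ i -
          ∑ i, u j₀ i * u l i + ∑ i, u j₀ i * u j₀ i := by
        rw [← Finset.sum_sub_distrib, ← Finset.sum_sub_distrib, ← Finset.sum_add_distrib]
        refine Finset.sum_congr rfl fun i _ => ?_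
        ring
      rw [h2, hu, hu, hu, hu, if_pos rfl, if_neg hkl, if_neg hk, if_neg hl.symm]
      ring
    have h3 : ∑ i, (u k i - u j₀ i) * (u l i - u j₀ i) = (u l (α k) - u j₀ (α k)) - (u l (β k) - u j₀ (β k)) := by
      rw [Fintype.sum_eq_add (α k) (β k) (hαβ k hk)]
      · rw [hα k hk, hβ k hk]
        ring
      · intro i hi
        rw [hrest k hk i hi.1 hi.2, zero_mul]
    rw [h3] at h1
    by_contra hne
    have h4 : u l (α k) - u j₀ (α k) = 0 := by
      apply hrest l hl
      · intro h
        exact hne (by rw [h])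
      · intro h
        apply hne
        rw [h, hdeq l hl]
    have h5 : u l (β k) - u j₀ (β k) = 0 := by
      apply hrest l hl
      · intro h
        apply hne
        rw [hdeq k hk, h]
      · intro h
        apply hne
        rw [hdeq k hk, h, hdeq l hl]
    rw [h4, h5] at h1
    norm_num at h1
  have hi₀α : ∀ k, k ≠ j₀ → α k ≠ i₀ := by
    intro k hk h
    have := hα k hk
    rw [h, hi₀, hi₀] at this
    norm_num at this
  obtain ⟨q, hq2, hq⟩ : ∃ q : ℤ, 2 ≤ q ∧ ∀ i, i ≠ i₀ → u j₀ i ≠ 0 → d i = q := by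
    by_cases hex : ∃ k, k ≠ j₀
    · obtain ⟨k₁, hk₁⟩ := hex
      refine ⟨d (α k₁), hd2 _ (hi₀α k₁ hk₁), ?_⟩
      intro i hi hne
      have h1 : ¬ ∀ j k, u j i = u k i := fun h => hne (hconst i hi h j₀)
      push Not at h1
      obtain ⟨j, k, hjk⟩ := h1
      obtain ⟨l, hl, hne2⟩ : ∃ l, l ≠ j₀ ∧ u l i ≠ u j₀ i := by
        by_cases h2 : u j i = u j₀ i
        · refine ⟨k, ?_, ?_⟩
          · rintro rfl
            exact hjk h2
          · intro h3
            exact hjk (h2.trans h3.symm)
        · refine ⟨j, ?_, h2⟩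
          rintro rfl
          exact h2 rfl
      have h3 : i = α l ∨ i = β l := by
        by_contra h4
        push Not at h4
        have := hrest l hl i h4.1 h4.2
        exact hne2 (by omega)
      rcases h3 with h3 | h3
      · rw [h3]
        exact hinter l k₁ hl hk₁
      · rw [h3, ← hdeq l hl]
        exact hinter l k₁ hl hk₁
    · push Not at hex
      refine ⟨2, le_rfl, ?_⟩
      intro i hi hne
      exfalso
      apply hne
      apply hconst i hi
      intro j k
      rw [hex j, hex k]
  have h1 := hz j₀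
  have h2 : ∀ i, d i * u j₀ i = (if i = i₀ then -1 else 0) + q * (if i = i₀ then 0 else u j₀ i) := by
    intro i
    by_cases h : i = i₀
    · rw [h, hd0, hi₀, if_pos rfl, if_pos rfl]
      ring
    · rw [if_neg h, if_neg h]
      by_cases h3 : u j₀ i = 0
      · rw [h3]
        ring
      · rw [hq i h h3]
        ring
  simp_rw [h2] at h1
  rw [Finset.sum_add_distrib, Finset.sum_ite_eq', if_pos (Finset.mem_univ _), ← Finset.mul_sum] at h1
  set Y := ∑ i, (if i = i₀ then 0 else u j₀ i) with hY
  have h3 : q * Y = 1 := by linarith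
  have h4 : q ∣ 1 := ⟨Y, h3.symm⟩
  have h5 := Int.le_of_dvd one_pos h4
  omega

section Simple

variable {G : Type u} [Group G] [Fintype G] [IsSimpleGroup G]

/-- In a simple group, nontrivial irreducible characters have norm less than the degree off `1`. -/
theorem norm_ne_of_simple (hG : ¬ IsMulCommutative G) (i : IrrCharacter G) (hi : i ≠ oneIrr G) {z : G} (hz : z ≠ 1)
    (hn : (i : G → ℂ) z * conj ((i : G → ℂ) z) = (i : G → ℂ) 1 * (i : G → ℂ) 1) : False := by
  classical
  have hc := IsIrrCharacter.isCharacter i.2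
  obtain ⟨d, hdpos, hd⟩ := Cfsg.Agent.Lib.CharLattice.exists_degree_pos i.2
  have hπ : IsCharacter G ((i : G → ℂ) * conjFun (i : G → ℂ)) :=
    isCharacter_mul hc (Cfsg.Agent.Lib.GenChar.isCharacter_conjFun hc)
  have hd1 := degree_ne_one hG hi hd
  have hmem : z ∈ charKer hπ := by
    rw [mem_charKer hπ]
    simp only [Pi.mul_apply, conjFun]
    rw [hn, hd, Complex.conj_natCast]
  rcases (inferInstance : (charKer hπ).Normal).eq_bot_or_eq_top with h | h
  · rw [h, Subgroup.mem_bot] at hmem
    exact hz hmem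
  · have hall : ∀ g, ((i : G → ℂ) * conjFun (i : G → ℂ)) g = ((i : G → ℂ) * conjFun (i : G → ℂ)) 1 :=
      fun g => (mem_charKer hπ).1 (h ▸ mem_top g)
    have hfin := classInner_irr_self i.2
    unfold classInner at hfin
    have h2 : ∀ g : G, (i : G → ℂ) g * conj ((i : G → ℂ) g) = ((i : G → ℂ) * conjFun (i : G → ℂ)) 1 :=
      fun g => hall g
    simp_rw [h2] at hfin
    rw [Finset.sum_const, Finset.card_univ, ← Nat.card_eq_fintype_card, nsmul_eq_mul, ← mul_assoc,
      inv_mul_cancel₀ natCard_ne_zero', one_mul] at hfin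
    simp only [Pi.mul_apply, conjFun] at hfin
    rw [hd, Complex.conj_natCast] at hfin
    have h3 : d * d = 1 := by exact_mod_cast hfin
    exact hd1 (Nat.eq_one_of_mul_eq_one_right h3)

/-- Faithfulness of nontrivial irreducible characters of simple groups. -/
theorem eq_one_of_ker (i : IrrCharacter G) (hi : i ≠ oneIrr G) {z : G} (hz : (i : G → ℂ) z = (i : G → ℂ) 1) :
    z = 1 := by
  classical
  have hc := IsIrrCharacter.isCharacter i.2
  rcases (inferInstance : (charKer hc).Normal).eq_bot_or_eq_top with h | h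
  · have hmem : z ∈ charKer hc := (mem_charKer hc).2 hz
    rw [h, Subgroup.mem_bot] at hmem
    exact hmem
  · exfalso
    apply hi
    apply Cfsg.Agent.Lib.TICent.eq_one_of_le_ker (P := ⊤)
    · intro K hK hPK
      exact top_le_iff.1 hPK
    · intro w _
      exact (mem_charKer hc).1 (h ▸ mem_top w)

/-- The Sylow subgroup at a prime degree has prime order. -/
theorem card_sylow_of_degree (hG : ¬ IsMulCommutative G) (i : IrrCharacter G) (hi : i ≠ oneIrr G) {q : ℕ}
    (hq : q.Prime) (hdeg : (i : G → ℂ) 1 = q) (Q : Sylow q G) : Nat.card (Q : Subgroup G) = q := by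
  classical
  haveI : Fact q.Prime := ⟨hq⟩
  have hc := IsIrrCharacter.isCharacter i.2
  letI : Fintype ↥(Q : Subgroup G) := Fintype.ofFinite _
  have hQp : IsPGroup q ↥(Q : Subgroup G) := Q.isPGroup'
  have hqG : q ∣ Nat.card G := by
    have h1 := charDegree_dvd_card i.2
    have h2 : charDegree (i : G → ℂ) = q := by
      have h3 := one_eq_charDegree hc
      rw [hdeg] at h3
      exact_mod_cast h3.symm
    rwa [h2] at h1
  have hQne : Nat.card (Q : Subgroup G) ≠ 1 := by
    intro h
    have h1 := Q.not_dvd_index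
    have h2 := Subgroup.card_mul_index (Q : Subgroup G)
    rw [h, one_mul] at h2
    rw [h2] at h1
    exact h1 hqG
  -- vanishing on central elements of `Q`
  have hvan : ∀ z : ↥(Q : Subgroup G), z ≠ 1 → (∀ y : ↥(Q : Subgroup G), z * y = y * z) → (i : G → ℂ) z = 0 := by
    intro z hz hcen
    obtain ⟨χ, n, ρ, hρ, hχ⟩ := i
    subst hχ
    have hn : Module.finrank ℂ (Fin n → ℂ) = q := by
      have h1 := Representation.char_one ρ
      have h2 : ρ.character 1 = q := hdeg
      rw [h2] at h1
      exact_mod_cast h1.symm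
    have hle : (Q : Subgroup G) ≤ centralizer ({(z : G)} : Set G) := by
      intro y hy
      rw [mem_centralizer_singleton_iff]
      have := hcen ⟨y, hy⟩
      exact (congrArg Subtype.val this).symm
    have hcop : Nat.Coprime (Module.finrank ℂ (Fin n → ℂ)) (centralizer ({(z : G)} : Set G)).index := by
      rw [hn, Nat.Prime.coprime_iff_not_dvd hq]
      intro h
      exact Q.not_dvd_index (dvd_trans h (Subgroup.index_dvd_of_le hle))
    rcases Cfsg.Agent.Lib.CharIntegrality.character_eq_zero_or_norm_eq ρ hρ z hcop with h | h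
    · exact h
    · exfalso
      have hz' : (z : G) ≠ 1 := fun h => hz (Subtype.ext h)
      apply norm_ne_of_simple hG ⟨ρ.character, n, ρ, hρ, rfl⟩ hi hz'
      simp only
      have hdeg' : ρ.character 1 = q := hdeg
      rw [Complex.mul_conj, Complex.normSq_eq_norm_sq, h, hdeg', hn]
      push_cast
      ring
  -- `Q` has a nontrivial central element
  haveI : Nontrivial ↥(Q : Subgroup G) := Finite.one_lt_card_iff_nontrivial.1 (by
    have := Nat.card_pos (α := ↥(Q : Subgroup G))
    omega)
  have hZ := hQp.center_nontrivial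
  obtain ⟨z₀, hz₀⟩ := exists_ne (1 : ↥(Subgroup.center ↥(Q : Subgroup G)))
  have hz₀' : ((z₀ : ↥(Q : Subgroup G))) ≠ 1 := fun h => hz₀ (Subtype.ext h)
  have hz₀c : ∀ y : ↥(Q : Subgroup G), (z₀ : ↥(Q : Subgroup G)) * y = y * z₀ := fun y =>
    (Subgroup.mem_center_iff.1 z₀.2 y).symm
  have hv₀ := hvan _ hz₀' hz₀c
  -- constituents of the restriction
  have hres := isCharacter_restrict (Q : Subgroup G) hc
  obtain ⟨m, hm⟩ := exists_nat_decomp hres
  have hval : ∀ g : ↥(Q : Subgroup G), (i : G → ℂ) g = ∑ ψ, (m ψ : ℂ) * (ψ : ↥(Q : Subgroup G) → ℂ) g := by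
    intro g
    have := congrFun hm g
    rw [Finset.sum_apply] at this
    simpa using this
  have hsum : ∑ ψ, m ψ * charDegree (ψ : ↥(Q : Subgroup G) → ℂ) = q := by
    have h1 := hval 1
    simp only [Subgroup.coe_one, hdeg] at h1
    have h2 : ∀ ψ : IrrCharacter ↥(Q : Subgroup G), (ψ : ↥(Q : Subgroup G) → ℂ) 1 = charDegree (ψ : ↥(Q : Subgroup G) → ℂ) :=
      fun ψ => one_eq_charDegree (IsIrrCharacter.isCharacter ψ.2)
    simp_rw [h2] at h1
    exact_mod_cast h1.symm
  have hlin : ∀ ψ, m ψ ≠ 0 → charDegree (ψ : ↥(Q : Subgroup G) → ℂ) = 1 := by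
    intro ψ hψ
    by_contra hne
    have hdvd : q ∣ charDegree (ψ : ↥(Q : Subgroup G) → ℂ) := by
      rcases Cfsg.Agent.Lib.CharCentral.pGroup_degree_one_or_dvd hQp ψ.2 with h | h
      · exact absurd h hne
      · exact h
    have hle : m ψ * charDegree (ψ : ↥(Q : Subgroup G) → ℂ) ≤ q := by
      have h0 := Finset.single_le_sum (f := fun ψ : IrrCharacter ↥(Q : Subgroup G) => m ψ * charDegree (ψ : ↥(Q : Subgroup G) → ℂ))
        (fun _ _ => Nat.zero_le _) (Finset.mem_univ ψ)
      rw [hsum] at h0
      exact h0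
    have hdpos := charDegree_pos ψ.2
    have hge : q ≤ charDegree (ψ : ↥(Q : Subgroup G) → ℂ) := Nat.le_of_dvd hdpos hdvd
    have hm1 : m ψ = 1 := by
      have h2 : m ψ * q ≤ q := le_trans (Nat.mul_le_mul_left _ hge) hle
      have h3 := hq.pos
      have h4 : m ψ ≤ 1 := by nlinarith
      omega
    have hdq : charDegree (ψ : ↥(Q : Subgroup G) → ℂ) = q := by
      rw [hm1, one_mul] at hle
      omega
    -- the restriction is `ψ`
    have hother : ∀ ψ', ψ' ≠ ψ → m ψ' = 0 := by
      intro ψ' hne2
      by_contra h5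
      have h6 := Finset.add_sum_erase Finset.univ
        (fun ψ : IrrCharacter ↥(Q : Subgroup G) => m ψ * charDegree (ψ : ↥(Q : Subgroup G) → ℂ)) (Finset.mem_univ ψ)
      have h7 : m ψ' * charDegree (ψ' : ↥(Q : Subgroup G) → ℂ) ≤
          ∑ x ∈ Finset.univ.erase ψ, m x * charDegree (x : ↥(Q : Subgroup G) → ℂ) :=
        Finset.single_le_sum (f := fun ψ : IrrCharacter ↥(Q : Subgroup G) => m ψ * charDegree (ψ : ↥(Q : Subgroup G) → ℂ))
          (fun _ _ => Nat.zero_le _) (Finset.mem_erase.2 ⟨hne2, Finset.mem_univ _⟩)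
      have h8 : 0 < m ψ' * charDegree (ψ' : ↥(Q : Subgroup G) → ℂ) :=
        Nat.mul_pos (Nat.pos_of_ne_zero h5) (charDegree_pos ψ'.2)
      rw [hm1, hdq, one_mul, hsum] at h6
      omega
    have hres2 : ∀ g : ↥(Q : Subgroup G), (i : G → ℂ) g = (ψ : ↥(Q : Subgroup G) → ℂ) g := by
      intro g
      rw [hval g, Finset.sum_eq_single ψ]
      · rw [hm1]
        simp
      · intro ψ' _ h
        rw [hother ψ' h]
        simp
      · intro h
        exact absurd (Finset.mem_univ _) h
    have hcn := Cfsg.Agent.Lib.CharCentral.central_norm ψ.2 (z := (z₀ : ↥(Q : Subgroup G))) hz₀c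
    rw [← hres2, hv₀, ← hres2] at hcn
    simp only [Subgroup.coe_one, hdeg, map_zero, mul_zero] at hcn
    have h9 : (q : ℂ) ≠ 0 := by exact_mod_cast hq.ne_zero
    exact (mul_ne_zero h9 h9) hcn.symm
  -- `Q` is abelian
  have hcomm : ∀ a b : ↥(Q : Subgroup G), a * b = b * a := by
    intro a b
    have h1 : (i : G → ℂ) ((a * b * a⁻¹ * b⁻¹ : ↥(Q : Subgroup G)) : G) = (i : G → ℂ) 1 := by
      have h2 := hval 1
      rw [Subgroup.coe_one] at h2
      rw [hval, h2]
      refine Finset.sum_congr rfl fun ψ _ => ?_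
      by_cases hψ : m ψ = 0
      · simp [hψ]
      · have h3 := hlin ψ hψ
        have h4 : (ψ : ↥(Q : Subgroup G) → ℂ) 1 = 1 := by
          rw [one_eq_charDegree (IsIrrCharacter.isCharacter ψ.2), h3]
          simp
        obtain ⟨f, hf⟩ := exists_hom_of_degree_one (IsIrrCharacter.isCharacter ψ.2) h4
        rw [h4, hf]
        congr 1
        simp only [map_mul, map_inv]
        rw [mul_comm (f a) (f b)]
        simp
    have h2 := eq_one_of_ker i hi h1
    have h3 : a * b * a⁻¹ * b⁻¹ = 1 := Subtype.ext h2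
    rw [mul_inv_eq_one, mul_inv_eq_iff_eq_mul] at h3
    exact h3
  -- counting
  obtain ⟨n, hn⟩ := classInner_char_char (IsIrrCharacter.isCharacter (isIrr_chi (1 : ↥(Q : Subgroup G) →* ℂˣ))) hres
  unfold classInner at hn
  have h5 : ∑ g : ↥(Q : Subgroup G), chi (1 : ↥(Q : Subgroup G) →* ℂˣ) g * conj ((i : G → ℂ) g) = q := by
    rw [Finset.sum_eq_single (1 : ↥(Q : Subgroup G))]
    · simp [chi, hdeg]
    · intro g _ hg
      rw [hvan g hg (fun y => hcomm g y)]
      simp
    · intro h
      exact absurd (Finset.mem_univ _) h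
  rw [h5] at hn
  have hQne0 : (Nat.card (Q : Subgroup G) : ℂ) ≠ 0 := by exact_mod_cast Nat.card_pos.ne'
  have h6 : (q : ℂ) = (Nat.card (Q : Subgroup G) : ℂ) * n := by
    field_simp at hn
    linear_combination hn
  have h7 : q = Nat.card (Q : Subgroup G) * n := by exact_mod_cast h6
  have h8 : Nat.card (Q : Subgroup G) ∣ q := ⟨n, h7⟩
  rcases (Nat.dvd_prime hq).1 h8 with h | h
  · exact absurd h hQne
  · exact h

end Simple

section Simple2

variable {G : Type u} [Group G] [Fintype G]

theorem Hyp_norm_avg_le {p : ℕ} {P C : Subgroup G} {ρ : ↥C →* ↥P} {e : ℕ} (H : Hyp p P C ρ e) [Fintype ρ.ker]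
    (ζ : G → ℂ) (hζ : IsCharacter G ζ) {d : ℕ} (hd : ζ 1 = d) : ‖avg ρ H ζ 1‖ ≤ d := by
  unfold avg
  have hKne : (Nat.card ρ.ker : ℝ) ≠ 0 := by exact_mod_cast Nat.card_pos.ne'
  rw [norm_mul, norm_inv, Complex.norm_natCast]
  have h2 : ‖∑ k : ρ.ker, ζ (((1 : ↥P) : G) * ((k : ↥C) : G))‖ ≤ Nat.card ρ.ker * d := by
    calc _ ≤ ∑ k : ρ.ker, ‖ζ (((1 : ↥P) : G) * ((k : ↥C) : G))‖ := norm_sum_le _ _
      _ ≤ ∑ _k : ρ.ker, (d : ℝ) := by
          refine Finset.sum_le_sum fun k _ => ?_
          have := Cfsg.Agent.Lib.GenChar.char_norm_le hζ (((1 : ↥P) : G) * ((k : ↥C) : G))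
          rw [hd, Complex.norm_natCast] at this
          exact this
      _ = _ := by
          rw [Finset.sum_const, Finset.card_univ, ← Nat.card_eq_fintype_card, nsmul_eq_mul]
  calc _ ≤ (Nat.card ρ.ker : ℝ)⁻¹ * (Nat.card ρ.ker * d) :=
        mul_le_mul_of_nonneg_left h2 (by positivity)
    _ = d := by field_simp

variable [IsSimpleGroup G]

/-- A simple nonabelian group cannot have all its nontrivial irreducible characters of prime degree. -/
theorem simple_false (hG : ¬ IsMulCommutative G)
    (hpr : ∀ χ : IrrCharacter G, charDegree (χ : G → ℂ) ≠ 1 → (charDegree (χ : G → ℂ)).Prime) : False := by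
  classical
  have hd0 : ∀ i : IrrCharacter G, ∃ n : ℕ, 0 < n ∧ (i : G → ℂ) 1 = n :=
    fun i => Cfsg.Agent.Lib.CharLattice.exists_degree_pos i.2
  choose d hdpos hd using hd0
  have hchar : ∀ i : IrrCharacter G, IsCharacter G (i : G → ℂ) := fun i => IsIrrCharacter.isCharacter i.2
  have hclass : ∀ i : IrrCharacter G, IsClassFunction G (i : G → ℂ) :=
    fun i => isClassFunction_of_isCharacter (hchar i)
  have hdc : ∀ i : IrrCharacter G, charDegree (i : G → ℂ) = d i := by
    intro i
    have h1 := hd i
    rw [one_eq_charDegree (hchar i)] at h1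
    exact_mod_cast h1
  have hdo : d (oneIrr G) = 1 := by
    have h1 := hd (oneIrr G)
    have h2 : ((oneIrr G : IrrCharacter G) : G → ℂ) 1 = 1 := by simp [oneIrr]
    rw [h2] at h1
    exact_mod_cast h1.symm
  have hd1 : ∀ i, i ≠ oneIrr G → d i ≠ 1 := fun i hi => degree_ne_one hG hi (hd i)
  have hpi : ∀ i, i ≠ oneIrr G → (d i).Prime := by
    intro i hi
    have h1 := hpr i (by rw [hdc]; exact hd1 i hi)
    rwa [hdc] at h1
  have hdvd : ∀ i, d i ∣ Nat.card G := by
    intro i
    rw [← hdc]
    exact charDegree_dvd_card i.2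
  have hcard1 : 1 < Nat.card G := Finite.one_lt_card_iff_nontrivial.2 inferInstance
  have hSne : (Nat.card G).primeFactors.Nonempty := Nat.nonempty_primeFactors.2 hcard1
  set r := (Nat.card G).primeFactors.max' hSne with hrdef
  have hrS : r ∈ (Nat.card G).primeFactors := Finset.max'_mem _ _
  have hr : r.Prime := Nat.prime_of_mem_primeFactors hrS
  have hrG : r ∣ Nat.card G := Nat.dvd_of_mem_primeFactors hrS
  have hmax : ∀ q, q.Prime → q ∣ Nat.card G → q ≤ r := fun q hq hqG =>
    Finset.le_max' _ _ (Nat.mem_primeFactors.2 ⟨hq, hqG, Nat.card_pos.ne'⟩)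
  have hcomm_of_solv : Group.IsSolvable G → False := by
    intro hs
    apply hG
    exact ⟨⟨IsSimpleGroup.comm_iff_isSolvable.2 hs⟩⟩
  have hr5 : 5 ≤ r := by
    by_contra hlt
    push Not at hlt
    obtain ⟨a, n', hn2, hn'⟩ := Nat.exists_eq_pow_mul_and_not_dvd (n := Nat.card G) Nat.card_pos.ne' 2 (by norm_num)
    have hn'0 : n' ≠ 0 := by
      rintro rfl
      exact hn2 (dvd_zero _)
    obtain ⟨b, m', hm3, hm'⟩ := Nat.exists_eq_pow_mul_and_not_dvd (n := n') hn'0 3 (by norm_num)
    have hm1 : m' = 1 := by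
      by_contra hne
      obtain ⟨q, hq, hqm⟩ := Nat.exists_prime_and_dvd hne
      have hqG : q ∣ Nat.card G := by
        rw [hn', hm']
        exact Dvd.dvd.mul_left (Dvd.dvd.mul_left hqm _) _
      have hle := hmax q hq hqG
      have hq2 : q = 2 ∨ q = 3 := by
        have : q ≤ 4 := by omega
        have h2 := hq.two_le
        interval_cases q
        · left; rfl
        · right; rfl
        · norm_num at hq
      rcases hq2 with rfl | rfl
      · apply hn2
        rw [hm']
        exact Dvd.dvd.mul_left hqm _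
      · exact hm3 hqm
    have h5 : Nat.card G = 2 ^ a * 3 ^ b := by
      rw [hn', hm', hm1, mul_one]
    exact hcomm_of_solv (Cfsg.Agent.Lib.BurnsidePQ.isSolvable_of_card_eq 2 3 Nat.prime_two Nat.prime_three _ G rfl ⟨a, b, h5⟩)
  obtain ⟨i₁, hi₁⟩ : ∃ i₁ : IrrCharacter G, d i₁ = r := by
    by_contra hall
    push Not at hall
    have hb : ∀ χ : IrrCharacter G, charDegree (χ : G → ℂ) < r := by
      intro χ
      rw [hdc]
      by_cases hχ : χ = oneIrr G
      · rw [hχ, hdo]
        exact hr.one_lt
      · exact lt_of_le_of_ne (hmax _ (hpi χ hχ) (hdvd χ)) (hall χ)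
    obtain ⟨A, hAn, hAc, hAp, hAi⟩ := Cfsg.Agent.S4464.result r hr hb
    rcases hAn.eq_bot_or_eq_top with h | h
    · rw [h, Subgroup.index_bot] at hAi
      exact hAi hrG
    · apply hG
      exact ⟨⟨fun a b => hAc a (h ▸ mem_top a) b (h ▸ mem_top b)⟩⟩
  have hi₁ne : i₁ ≠ oneIrr G := by
    rintro rfl
    rw [hdo] at hi₁
    have := hr.one_lt
    omega
  haveI hrf : Fact r.Prime := ⟨hr⟩
  let R : Sylow r G := default
  have hRcard : Nat.card (R : Subgroup G) = r :=
    card_sylow_of_degree hG i₁ hi₁ne hr (by rw [hd, hi₁]) R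
  have hstar : ∀ x ∈ (R : Subgroup G), x ≠ 1 →
      centralizer ({x} : Set G) = centralizer ((R : Subgroup G) : Set G) := by
    intro x hx hx1
    have hz := Cfsg.Agent.Lib.SmallGroups2.zpowers_eq_of_mem_of_ne_one hr hRcard hx hx1
    ext y
    rw [mem_centralizer_singleton_iff, mem_centralizer_iff]
    constructor
    · intro hy w hw
      rw [← hz] at hw
      obtain ⟨k, rfl⟩ := Subgroup.mem_zpowers_iff.1 hw
      exact ((Commute.zpow_left (show Commute x y from hy.symm) k))
    · intro hy
      exact (hy x hx).symm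
  obtain ⟨ρ, e, H⟩ := exists_hyp r hr R hstar (by rw [hRcard]; exact hr.one_lt)
  letI : Fintype ↥(centralizer ((R : Subgroup G) : Set G)) := Fintype.ofFinite _
  letI : Fintype ↥(R : Subgroup G) := Fintype.ofFinite _
  letI : Fintype ρ.ker := Fintype.ofFinite _
  have hnorm : ∀ K : Subgroup G, K.Normal → (R : Subgroup G) ≤ K → K = ⊤ := by
    intro K hK hRK
    rcases hK.eq_bot_or_eq_top with h | h
    · exfalso
      rw [h, le_bot_iff] at hRK
      rw [hRK] at hRcard
      simp at hRcard
      have := hr.one_lt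
      omega
    · exact h
  have hc : ∀ u ∈ (R : Subgroup G), ∀ v ∈ (R : Subgroup G), u * v = v * u := fun u hu v hv => (H.comm_P hu hv).symm
  haveI : Finite (↥(R : Subgroup G) →* ℂˣ) := dual_finite hc
  letI : Fintype (↥(R : Subgroup G) →* ℂˣ) := Fintype.ofFinite _
  haveI : Fintype (normalizer ((R : Subgroup G) : Set G)) := Fintype.ofFinite _
  letI : Fintype (MulAction.orbitRel.Quotient ↥(normalizer ((R : Subgroup G) : Set G)) (NT (R : Subgroup G))) :=
    Fintype.ofFinite _
  let J := MulAction.orbitRel.Quotient ↥(normalizer ((R : Subgroup G) : Set G)) (NT (R : Subgroup G))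
  let o : J → NT (R : Subgroup G) := fun j => Quotient.out j
  obtain ⟨t, hN⟩ : ∃ t, Nat.card (normalizer ((R : Subgroup G) : Set G)) =
      Nat.card (centralizer ((R : Subgroup G) : Set G)) * t :=
    Subgroup.card_dvd_of_le H.le_normalizer
  have hm0 : ∀ (f : ↥(R : Subgroup G) →* ℂˣ) (i : IrrCharacter G), ∃ n : ℕ,
      classInner (chi f) (fun z : ↥(R : Subgroup G) => (i : G → ℂ) z) = n :=
    fun f i => classInner_char_char (IsIrrCharacter.isCharacter (isIrr_chi f))
      (isCharacter_restrict (R : Subgroup G) (hchar i))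
  choose m hm using hm0
  have ha0 : ∀ (f : ↥(R : Subgroup G) →* ℂˣ) (i : IrrCharacter G), ∃ n : ℕ,
      classInner (chi (f.comp ρ)) (fun c : ↥(centralizer ((R : Subgroup G) : Set G)) => (i : G → ℂ) c) = n :=
    fun f i => classInner_char_char (IsIrrCharacter.isCharacter (isIrr_chi _)) (isCharacter_restrict _ (hchar i))
  choose a ha using ha0
  have hminv : ∀ (x : normalizer ((R : Subgroup G) : Set G)) f i, m (x • f) i = m f i := by
    intro x f i
    have h1 := inner_smul_P x f (hclass i)
    rw [hm, hm] at h1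
    exact_mod_cast h1
  have hainv : ∀ (x : normalizer ((R : Subgroup G) : Set G)) f i, a (x • f) i = a f i := by
    intro x f i
    have h1 := H.inner_smul_C x f (hclass i)
    rw [ha, ha] at h1
    exact_mod_cast h1
  have hmsum : ∀ i, ∑ f, m f i = d i := by
    intro i
    have h1 := sum_classInner hc (fun z : ↥(R : Subgroup G) => (i : G → ℂ) z)
    simp only [hm] at h1
    have h2 : ((∑ f, m f i : ℕ) : ℂ) = d i := by
      push_cast
      rw [h1]
      simp [hd i]
    exact_mod_cast h2
  have horb : ∀ (F : (↥(R : Subgroup G) →* ℂˣ) → ℤ),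
      (∀ (x : normalizer ((R : Subgroup G) : Set G)) f, f ≠ 1 → F (x • f) = F f) →
      ∑ f, F f = F 1 + t * ∑ j : J, F (o j).1 := fun F hF => H.sum_dual_eq hN F hF
  have hcard : (r : ℤ) = 1 + t * Fintype.card J := by
    have h1 := horb (fun _ => 1) (fun _ _ _ => rfl)
    simp only [Finset.sum_const, Finset.card_univ, nsmul_eq_mul, mul_one] at h1
    rw [← Nat.card_eq_fintype_card (α := ↥(R : Subgroup G) →* ℂˣ), card_dual hc, hRcard] at h1
    simpa using h1
  have hJpos : 0 < Fintype.card J := by
    by_contra h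
    have h2 : Fintype.card J = 0 := by omega
    rw [h2] at hcard
    have := hr.one_lt
    simp at hcard
    omega
  obtain ⟨j₀⟩ : Nonempty J := Fintype.card_pos_iff.1 hJpos
  have hout : ∀ b : NT (R : Subgroup G), ∃ x : normalizer ((R : Subgroup G) : Set G), x • b = o (Quotient.mk _ b) := by
    intro b
    have h1 : (Quotient.out (Quotient.mk _ b : J)) ∈ MulAction.orbit (normalizer ((R : Subgroup G) : Set G)) b :=
      Quotient.mk_out (s := MulAction.orbitRel (normalizer ((R : Subgroup G) : Set G)) (NT (R : Subgroup G))) b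
    obtain ⟨x, hx⟩ := h1
    exact ⟨x, hx⟩
  let u : J → IrrCharacter G → ℤ := fun j i => (a (o j).1 i : ℤ) - a 1 i
  have hu : ∀ (j : J) (i : IrrCharacter G), classInner (tF ρ (o j).1) (i : G → ℂ) = u j i := by
    intro j i
    unfold tF
    rw [classInner_theta _ (hclass i)]
    have h1 : (1 : ↥(centralizer ((R : Subgroup G) : Set G)) →* ℂˣ) = (1 : ↥(R : Subgroup G) →* ℂˣ).comp ρ :=
      (MonoidHom.one_comp ρ).symm
    rw [h1, ha, ha]
    simp [u]
  have hinner : ∀ j k, ∑ i, u j i * u k i = (t : ℤ) + if j = k then 1 else 0 := by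
    intro j k
    have h1 := H.inner_tF hN (o j).2 (o k).2
    rw [parseval (tF_isClass ρ _)] at h1
    have h2 : (∃ x : normalizer ((R : Subgroup G) : Set G), x • (o k).1 = (o j).1) ↔ j = k := by
      constructor
      · rintro ⟨x, hx⟩
        have h3 : x • (o k) = o j := Subtype.ext hx
        have h4 : (Quotient.mk _ (o j) : J) = Quotient.mk _ (o k) := by
          apply Quotient.sound
          exact ⟨x, h3⟩
        have h5 : ∀ l : J, (Quotient.mk _ (o l) : J) = l := fun l => Quotient.out_eq l
        rw [h5, h5] at h4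
        exact h4
      · rintro rfl
        exact ⟨1, one_smul _ _⟩
    simp only [h2] at h1
    have h3 : ∀ i : IrrCharacter G, conj (classInner (tF ρ (o k).1) (i : G → ℂ)) *
        classInner (tF ρ (o j).1) (i : G → ℂ) = ((u j i * u k i : ℤ) : ℂ) := by
      intro i
      rw [hu, hu]
      simp only [Int.cast_mul, map_intCast]
      ring
    simp_rw [h3] at h1
    rw [← Int.cast_sum] at h1
    have h4 : ((∑ i, u j i * u k i : ℤ) : ℂ) = (((t : ℤ) + if j = k then 1 else 0 : ℤ) : ℂ) := by
      rw [h1]
      split_ifs <;> simp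
    exact_mod_cast h4
  have ha1 : ∀ f : ↥(R : Subgroup G) →* ℂˣ, (a f (oneIrr G) : ℂ) = if f = 1 then 1 else 0 := by
    intro f
    rw [← ha]
    have h2 : (fun c : ↥(centralizer ((R : Subgroup G) : Set G)) => ((oneIrr G : IrrCharacter G) : G → ℂ) (c : G)) =
        chi ((1 : ↥(R : Subgroup G) →* ℂˣ).comp ρ) := by
      funext c
      simp [oneIrr, chi]
    rw [h2, classInner_chi]
    by_cases hf : f = 1
    · rw [hf, if_pos rfl, if_pos rfl]
    · rw [if_neg hf, if_neg (fun h => hf (H.comp_inj h))]
  have hi₀ : ∀ j, u j (oneIrr G) = -1 := by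
    intro j
    have h1 := ha1 (o j).1
    have h2 := ha1 1
    rw [if_neg (o j).2] at h1
    rw [if_pos rfl] at h2
    have h3 : a (o j).1 (oneIrr G) = 0 := by exact_mod_cast h1
    have h4 : a 1 (oneIrr G) = 1 := by exact_mod_cast h2
    simp only [u, h3, h4]
    simp
  have hzero : ∀ j, ∑ i, (d i : ℤ) * u j i = 0 := by
    intro j
    have h1 := eval_eq_sum (tF_isClass ρ (o j).1) 1
    rw [tF_one] at h1
    have h2 : ∀ i : IrrCharacter G, classInner (tF ρ (o j).1) (i : G → ℂ) * (i : G → ℂ) 1 =
        (((d i : ℤ) * u j i : ℤ) : ℂ) := by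
      intro i
      rw [hu, hd]
      push_cast
      ring
    simp_rw [h2] at h1
    rw [← Int.cast_sum] at h1
    exact_mod_cast h1.symm
  -- **the constant coordinates vanish**
  have hconst : ∀ i, i ≠ oneIrr G → (∀ j k, u j i = u k i) → ∀ j, u j i = 0 := by
    intro i hi hci j
    have hval : ∀ k, a (o k).1 i = a (o j).1 i := by
      intro k
      have := hci k j
      simp only [u] at this
      omega
    have hdle := hmax _ (hpi i hi) (hdvd i)
    have hgoal : a (o j).1 i = a 1 i := by
      rcases Nat.lt_or_ge (d i) r with hlt | hge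
      · have hsumle : ∑ f, a f i ≤ d i := by
          have h1 := sum_classInner hc (avg ρ H (i : G → ℂ))
          simp_rw [← H.inner_eq, ha] at h1
          have h2 := Hyp_norm_avg_le H (i : G → ℂ) (hchar i) (hd i)
          have h3 : ((∑ f, a f i : ℕ) : ℂ) = conj (avg ρ H (i : G → ℂ) 1) := by
            push_cast
            exact h1
          have h4 := congrArg norm h3
          rw [RCLike.norm_conj, Complex.norm_natCast] at h4
          rw [← h4] at h2
          exact_mod_cast h2
        have hsuma : ((∑ f, a f i : ℕ) : ℤ) = a 1 i + t * (Fintype.card J * (a (o j).1 i : ℤ)) := by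
          have h1 := horb (fun f => (a f i : ℤ)) (fun x f _ => by simp only [hainv])
          have h2 : ∑ k : J, (a (o k).1 i : ℤ) = Fintype.card J * (a (o j).1 i : ℤ) := by
            simp_rw [hval]
            rw [Finset.sum_const, Finset.card_univ, nsmul_eq_mul]
          rw [h2] at h1
          rw [← h1]
          push_cast
          rfl
        by_cases hA : a 1 i = 0
        · rw [hA]
          by_contra hv
          have h1 : (r : ℤ) - 1 ≤ d i := by
            have h2 : (1 : ℤ) ≤ (a (o j).1 i : ℤ) := by exact_mod_cast Nat.pos_of_ne_zero hv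
            have h3 : ((∑ f, a f i : ℕ) : ℤ) ≤ d i := by exact_mod_cast hsumle
            rw [hsuma, hA] at h3
            have h4 : (0 : ℤ) ≤ t * Fintype.card J := by positivity
            nlinarith
          have h2 : d i = r - 1 := by omega
          have h3 := hpi i hi
          rw [h2] at h3
          have h4 : 2 ∣ r - 1 := by
            rcases hr.eq_two_or_odd' with h | h
            · omega
            · obtain ⟨w, hw⟩ := h
              exact ⟨w, by omega⟩
          rcases (Nat.dvd_prime h3).1 h4 with h5 | h5 <;> omega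
        · exfalso
          have hdP : d i < Nat.card (R : Subgroup G) := by rw [hRcard]; exact hlt
          have hAne : classInner (chi ((1 : ↥(R : Subgroup G) →* ℂˣ).comp ρ))
              (fun c : ↥(centralizer ((R : Subgroup G) : Set G)) => (i : G → ℂ) c) ≠ 0 := by
            rw [ha]
            exact_mod_cast hA
          have hker := H.kF i (hd i) hdP hAne
          have hav' : avg ρ H (i : G → ℂ) = fun z : ↥(R : Subgroup G) => (i : G → ℂ) z :=
            funext (H.avg_eq _ (hchar i) hker)
          have ham : ∀ f, a f i = m f i := by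
            intro f
            have h1 := H.inner_eq f (i : G → ℂ)
            rw [ha, hav', hm] at h1
            exact_mod_cast h1
          have hv0 : a (o j).1 i = 0 := by
            by_contra hv
            have h2 : (1 : ℤ) ≤ (a (o j).1 i : ℤ) := by exact_mod_cast Nat.pos_of_ne_zero hv
            have h3 : ((∑ f, a f i : ℕ) : ℤ) ≤ d i := by exact_mod_cast hsumle
            rw [hsuma] at h3
            have h5 : (1 : ℤ) ≤ (a 1 i : ℤ) := by exact_mod_cast Nat.pos_of_ne_zero hA
            have h6 : (d i : ℤ) < r := by exact_mod_cast hlt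
            have h4 : (0 : ℤ) ≤ t * Fintype.card J := by positivity
            nlinarith
          apply hi
          apply eq_one_of_le_ker hnorm
          intro z hz
          have h1 := exists_coeff_ne hc (fun z : ↥(R : Subgroup G) => (i : G → ℂ) z) (by
            intro f hf
            rw [hm]
            obtain ⟨x, hx⟩ := hout ⟨f, hf⟩
            have h2 := hval (Quotient.mk _ ⟨f, hf⟩)
            rw [← hx, hv0] at h2
            have h3 : a (x • f) i = 0 := h2
            rw [hainv, ham] at h3
            simp [h3]) ⟨z, hz⟩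
          simpa using h1
      · -- defect zero
        have hdr : d i = r := le_antisymm hdle hge
        have hnd : ¬ r ^ (1 + 1) ∣ Nat.card G := by
          intro h
          have h1 := Subgroup.card_mul_index (R : Subgroup G)
          rw [hRcard] at h1
          rw [← h1, pow_two] at h
          exact R.not_dvd_index (Nat.dvd_of_mul_dvd_mul_left hr.pos h)
        have hvan : ∀ c : ↥(centralizer ((R : Subgroup G) : Set G)), ρ c ≠ 1 → (i : G → ℂ) c = 0 := by
          intro c hc1
          have hord : r ∣ orderOf (c : G) := by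
            rw [Subgroup.orderOf_coe]
            have h1 : orderOf (ρ c) ∣ orderOf c := orderOf_map_dvd ρ c
            have h2 : orderOf (ρ c) ∣ Nat.card ↥(R : Subgroup G) := orderOf_dvd_natCard _
            rw [hRcard] at h2
            rcases (Nat.dvd_prime hr).1 h2 with h3 | h3
            · exact absurd (orderOf_eq_one_iff.1 h3) hc1
            · rwa [h3] at h1
          obtain ⟨χ, n, σ, hσ, hχ⟩ := i
          subst hχ
          have hn : Module.finrank ℂ (Fin n → ℂ) = r := by
            have h1 := Representation.char_one σ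
            have h2 := hd ⟨σ.character, n, σ, hσ, rfl⟩
            have h3 : σ.character 1 = d ⟨σ.character, n, σ, hσ, rfl⟩ := h2
            rw [h3, hdr] at h1
            exact_mod_cast h1.symm
          exact Cfsg.Agent.Lib.DefectZero.character_eq_zero_of_defect_zero σ hσ hr (n := 1)
            (by simpa using hrG) hnd (by simp [hn]) _ hord
        have h1 : classInner (chi ((o j).1.comp ρ)) (fun c : ↥(centralizer ((R : Subgroup G) : Set G)) => (i : G → ℂ) c) =
            classInner (chi ((1 : ↥(R : Subgroup G) →* ℂˣ).comp ρ))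
              (fun c : ↥(centralizer ((R : Subgroup G) : Set G)) => (i : G → ℂ) c) := by
          unfold classInner
          congr 1
          refine Finset.sum_congr rfl fun c _ => ?_
          by_cases hc1 : ρ c = 1
          · simp [chi, hc1]
          · beta_reduce
            rw [hvan c hc1]
            simp
        rw [ha, ha] at h1
        exact_mod_cast h1
    simp only [u, hgoal]
    ring
  refine abstract_false t j₀ u (fun i => (d i : ℤ)) (oneIrr G) hi₀ (by simp [hdo]) ?_ hinner hzero hconst
  intro i hi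
  have h1 := (hpi i hi).two_le
  exact_mod_cast h1

end Simple2

/-- **Theorem.** -/
theorem isSolvable_of_prime_degrees : ∀ (n : ℕ) (G : Type u) [Group G] [Finite G], Nat.card G = n →
    (∀ χ : IrrCharacter G, charDegree (χ : G → ℂ) ≠ 1 → (charDegree (χ : G → ℂ)).Prime) → Group.IsSolvable G := by
  intro n
  induction n using Nat.strong_induction_on with
  | _ n ih =>
    intro G _ _ hn hpr
    classical
    letI : Fintype G := Fintype.ofFinite G
    by_cases htriv : Subsingleton G
    · infer_instance
    rw [not_subsingleton_iff_nontrivial] at htriv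
    by_cases hsimple : IsSimpleGroup G
    · by_cases hcomm : IsMulCommutative G
      · have h1 : ∀ a b : G, a * b = b * a := hcomm.is_comm.comm
        exact IsSimpleGroup.comm_iff_isSolvable.1 h1
      · exact (simple_false hcomm hpr).elim
    · obtain ⟨N, hN, hN1, hNt⟩ : ∃ N : Subgroup G, N.Normal ∧ N ≠ ⊥ ∧ N ≠ ⊤ := by
        by_contra hno
        push Not at hno
        exact hsimple ⟨fun N hN => by
          by_cases h : N = ⊥
          · exact Or.inl h
          · exact Or.inr (hno N hN h)⟩
      letI : Fintype N := Fintype.ofFinite _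
      have hNcard : Nat.card N < n := by
        rw [← hn]
        have h2 := Subgroup.card_mul_index N
        have h3 : N.index ≠ 1 := fun h => hNt (Subgroup.index_eq_one.1 h)
        have h4 : N.index ≠ 0 := Subgroup.index_ne_zero_of_finite
        have h5 : 2 ≤ N.index := by omega
        have h6 : 0 < Nat.card N := Nat.card_pos
        nlinarith
      have hQcard : Nat.card (G ⧸ N) < n := by
        rw [← hn]
        have h2 := Subgroup.card_mul_index N
        have h3 : Nat.card N ≠ 1 := by
          intro h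
          exact hN1 ((Subgroup.card_eq_one).1 h)
        have h4 : 2 ≤ Nat.card N := by
          have := Nat.card_pos (α := N)
          omega
        have h6 : 0 < N.index := Nat.pos_of_ne_zero Subgroup.index_ne_zero_of_finite
        rw [← h2, Subgroup.index_eq_card]
        rw [Subgroup.index_eq_card] at h6
        nlinarith
      have hsN : Group.IsSolvable N := ih _ hNcard N rfl (by
        intro θ hθ
        obtain ⟨χ, hχ⟩ := Cfsg.Agent.Lib.GlaubAbove.exists_irr_over N θ
        have hdvd := Cfsg.Agent.Lib.CliffDvd.degree_dvd N θ.2 χ.2 hχ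
        by_cases h1 : charDegree (χ : G → ℂ) = 1
        · rw [h1] at hdvd
          exact absurd (Nat.dvd_one.1 hdvd) hθ
        · have h2 := hpr χ h1
          rcases (Nat.dvd_prime h2).1 hdvd with h3 | h3
          · exact absurd h3 hθ
          · rw [h3]
            exact h2)
      have hsQ : Group.IsSolvable (G ⧸ N) := ih _ hQcard (G ⧸ N) rfl (by
        intro θ hθ
        have hirr := isIrrCharacter_comp_of_surjective (QuotientGroup.mk' N) (QuotientGroup.mk'_surjective N) θ.2
        have hdeg : charDegree (θ : G ⧸ N → ℂ) = charDegree ((θ : G ⧸ N → ℂ) ∘ QuotientGroup.mk' N) := by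
          unfold charDegree
          simp
        rw [hdeg] at hθ ⊢
        exact hpr ⟨_, hirr⟩ hθ)
      exact Group.isSolvable_of_ker_le_range N.subtype (QuotientGroup.mk' N) (by
        rw [QuotientGroup.ker_mk', Subgroup.range_subtype])

end Cfsg.Agent.Lib.NonlinPrime
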