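import Mathlib
import Cfsg.Agent.Lib.TwoLocal2
import Cfsg.Agent.Lib.SmallA879
import Cfsg.Agent.Lib.D8CentGroup

/-!
# Groups of order 4320: the transfer argument for an involution centralizer `2 × A₅`
-/

set_option autoImplicit false
set_option linter.style.haveILetI false

namespace Cfsg.Agent.Lib.O4320Abs79

open Subgroup

variable {G : Type*} [Group G] [Finite G]

lemma card_dvd_of_conj_central {T : Subgroup G} {z t : G} (hz : ∀ s ∈ T, s * z = z * s) (g : G)
    (h : g * z * g⁻¹ = t) : Nat.card T ∣ Nat.card (centralizer ({t} : Set G)) := by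
  have hle : T.map (MulAut.conj g).toMonoidHom ≤ centralizer ({t} : Set G) := by
    rintro _ ⟨s, hs, rfl⟩
    rw [Subgroup.mem_centralizer_singleton_iff, ← h]
    have h1 := hz s hs
    simp only [MulAut.conj_apply, MulEquiv.coe_toMonoidHom]
    calc g * s * g⁻¹ * (g * z * g⁻¹) = g * (s * z) * g⁻¹ := by group
      _ = g * (z * s) * g⁻¹ := by rw [h1]
      _ = g * z * g⁻¹ * (g * s * g⁻¹) := by group
  have h1 := Subgroup.card_dvd_of_le hle
  have h2 : Nat.card (T.map (MulAut.conj g).toMonoidHom) = Nat.card T :=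
    Nat.card_congr (Subgroup.equivMapOfInjective T _ (MulAut.conj g).injective).symm.toEquiv
  rwa [h2] at h1

lemma card_ge_of_finset (H : Subgroup G) (S : Finset G) (hS : ∀ s ∈ S, s ∈ H) : S.card ≤ Nat.card H := by
  classical
  haveI : Fintype H := Fintype.ofFinite _
  rw [Nat.card_eq_fintype_card]
  have : S.card = (S.subtype (· ∈ H)).card := by
    rw [Finset.card_subtype]
    congr 1
    symm
    exact Finset.filter_true_of_mem hS
  rw [this]
  exact Finset.card_le_univ _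

lemma index_ge_of_images {β : Type*} (C : Subgroup G) (φ : G → β) (S : Finset β)
    (hS : ∀ b ∈ S, ∃ g, φ g = b) (hfib : ∀ g g', g⁻¹ * g' ∈ C → φ g = φ g') : S.card ≤ C.index := by
  classical
  choose! f hf using hS
  let F : S → G ⧸ C := fun b => ((f b.1 : G) : G ⧸ C)
  have hF : Function.Injective F := by
    intro a b hab
    have h1 : (f a.1)⁻¹ * f b.1 ∈ C := QuotientGroup.eq.1 hab
    have h2 := hfib _ _ h1
    rw [hf _ a.2, hf _ b.2] at h2
    exact Subtype.ext h2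
  haveI : Finite (G ⧸ C) := inferInstance
  have h3 := Nat.card_le_card_of_injective F hF
  rw [Nat.card_eq_fintype_card, Fintype.card_coe] at h3
  exact h3

lemma conj_eq_of_comm {g g' t : G} (h : g⁻¹ * g' * t = t * (g⁻¹ * g')) : g * t * g⁻¹ = g' * t * g'⁻¹ := by
  calc g * t * g⁻¹ = g * (t * (g⁻¹ * g')) * g'⁻¹ := by group
    _ = g * (g⁻¹ * g' * t) * g'⁻¹ := by rw [h]
    _ = g' * t * g'⁻¹ := by group

/-- The data extracted for the transfer argument. -/
structure Data (t D z a₂ a₃ : G) (T₀ : Subgroup G) : Prop where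
  ht2 : t * t = 1
  ht1 : t ≠ 1
  hX : Nat.card (centralizer ({t} : Set G)) = 120
  hT₀ : Nat.card T₀ = 8
  htT : t ∈ T₀
  hTX : ∀ g ∈ T₀, g * t = t * g
  hDt : D * t = t * D
  hDinv : D * D = D⁻¹
  hDN : ∀ g ∈ T₀, D * g * D⁻¹ ∈ T₀
  hD1 : D ≠ 1
  hcov : ∀ y ∈ T₀, y = 1 ∨ y = t ∨ y = z ∨ y = a₂ ∨ y = a₃ ∨ y = t * z ∨ y = t * a₂ ∨ y = t * a₃
  ha₂ : a₂ = D * z * D⁻¹
  ha₃ : a₃ = D⁻¹ * z * D
  hz : z ∈ T₀
  hz2 : z * z = 1
  hz1 : z ≠ 1
  ne12 : z ≠ a₂
  ne13 : z ≠ a₃
  ne23 : a₂ ≠ a₃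
  hcent : ∀ k, k * t = t * k → k * z = z * k → k ∈ T₀
  hnc : ∀ g h : G, h * t * h⁻¹ ≠ g * z * g⁻¹
  hprod : z * a₂ * a₃ = 1 ∨ z * a₂ * a₃ = t
  hx : ∃ x ∈ normalizer (T₀ : Set G), x * z * x⁻¹ = z ∧ x * t * x⁻¹ ≠ t
  hperf : commutator G = ⊤
  hG : Nat.card G = 4320

theorem contra_of_data {t D z a₂ a₃ : G} {T₀ : Subgroup G} (d : Data t D z a₂ a₃ T₀) : False := by
  classical
  haveI : Fact (Nat.Prime 2) := ⟨Nat.prime_two⟩
  obtain ⟨ht2, ht1, hX, hT₀, htT, hTX, hDt, hDinv, hDN, hD1, hcov, ha₂, ha₃, hz, hz2, hz1, ne12, ne13, ne23, hcent, hnc,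
    hprod', ⟨x, hxN, hxz, hxt⟩, hperf, hG⟩ := d
  have hDN' : ∀ g ∈ T₀, D⁻¹ * g * D ∈ T₀ := by
    intro g hg
    have h1 := hDN _ (hDN g hg)
    have h2 : D * (D * g * D⁻¹) * D⁻¹ = D⁻¹ * g * D := by
      calc D * (D * g * D⁻¹) * D⁻¹ = (D * D) * g * (D * D)⁻¹ := by group
        _ = D⁻¹ * g * D := by rw [hDinv, inv_inv]
    rwa [h2] at h1
  have hD12 : D * z * D⁻¹ = a₂ := ha₂.symm
  have hD23 : D * a₂ * D⁻¹ = a₃ := by
    rw [ha₂, ha₃]
    calc D * (D * z * D⁻¹) * D⁻¹ = (D * D) * z * (D * D)⁻¹ := by group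
      _ = D⁻¹ * z * D := by rw [hDinv, inv_inv]
  have hD31 : D * a₃ * D⁻¹ = z := by rw [ha₃]; group
  have ha₂T : a₂ ∈ T₀ := by rw [ha₂]; exact hDN z hz
  have ha₃T : a₃ ∈ T₀ := by rw [ha₃]; exact hDN' z hz
  have ha₂2 : a₂ * a₂ = 1 := by
    rw [ha₂]
    calc D * z * D⁻¹ * (D * z * D⁻¹) = D * (z * z) * D⁻¹ := by group
      _ = 1 := by rw [hz2]; group
  have ha₃2 : a₃ * a₃ = 1 := by
    rw [ha₃]
    calc D⁻¹ * z * D * (D⁻¹ * z * D) = D⁻¹ * (z * z) * D := by group
      _ = 1 := by rw [hz2]; group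
  have htmul2 : ∀ y ∈ T₀, y * y = 1 → (t * y) * (t * y) = 1 := by
    intro y hy h
    calc t * y * (t * y) = t * (y * t) * y := by group
      _ = t * (t * y) * y := by rw [hTX y hy]
      _ = (t * t) * (y * y) := by group
      _ = 1 := by rw [ht2, h, one_mul]
  have hinv : ∀ y ∈ T₀, y * y = 1 := by
    intro y hy
    rcases hcov y hy with rfl | rfl | rfl | rfl | rfl | rfl | rfl | rfl
    · simp
    · exact ht2
    · exact hz2
    · exact ha₂2
    · exact ha₃2
    · exact htmul2 _ hz hz2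
    · exact htmul2 _ ha₂T ha₂2
    · exact htmul2 _ ha₃T ha₃2
  have hinv' : ∀ y ∈ T₀, y⁻¹ = y := fun y hy => inv_eq_of_mul_eq_one_left (hinv y hy)
  have hcomm : ∀ u ∈ T₀, ∀ v ∈ T₀, u * v = v * u := by
    intro u hu v hv
    have h1 := hinv' _ (T₀.mul_mem hu hv)
    rw [mul_inv_rev, hinv' u hu, hinv' v hv] at h1
    exact h1.symm
  have hxT : x * t * x⁻¹ ∈ T₀ := (mem_normalizer_iff.1 hxN t).1 htT
  have hnc1 : ∀ h : G, h * t * h⁻¹ ≠ z := fun h e => hnc 1 h (by simpa using e)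
  have hnc2 : ∀ h : G, h * t * h⁻¹ ≠ a₂ := fun h e => hnc D h (by rw [e, ha₂])
  have hnc3 : ∀ h : G, h * t * h⁻¹ ≠ a₃ := fun h e => hnc D⁻¹ h (by rw [e, ha₃, inv_inv])
  have hne1 : ∀ h : G, h * t * h⁻¹ ≠ 1 := fun h e => ht1 (conj_eq_one_iff.1 e)
  have hDnorm : D ∈ normalizer (T₀ : Set G) := by
    rw [mem_normalizer_iff]
    intro h
    refine ⟨hDN h, fun hh => ?_⟩
    have h1 := hDN' _ hh
    have h2 : D⁻¹ * (D * h * D⁻¹) * D = h := by group
    rwa [h2] at h1
  have hT₀N : T₀ ≤ normalizer (T₀ : Set G) := Subgroup.le_normalizer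
  have hshift : ∀ g y : G, g ∈ normalizer (T₀ : Set G) → g * t * g⁻¹ = t * y →
      D * g * D⁻¹ ∈ normalizer (T₀ : Set G) ∧
        (D * g * D⁻¹) * t * (D * g * D⁻¹)⁻¹ = t * (D * y * D⁻¹) := by
    intro g y hg hy
    refine ⟨mul_mem (mul_mem hDnorm hg) (inv_mem hDnorm), ?_⟩
    have h1 : D⁻¹ * t * D = t := by rw [mul_assoc, ← hDt]; group
    calc (D * g * D⁻¹) * t * (D * g * D⁻¹)⁻¹ = D * g * (D⁻¹ * t * D) * g⁻¹ * D⁻¹ := by group
      _ = D * (g * t * g⁻¹) * D⁻¹ := by rw [h1]; group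
      _ = D * (t * y) * D⁻¹ := by rw [hy]
      _ = (D * t) * y * D⁻¹ := by group
      _ = t * (D * y * D⁻¹) := by rw [hDt]; group
  have hxcases : x * t * x⁻¹ = t * z ∨ x * t * x⁻¹ = t * a₂ ∨ x * t * x⁻¹ = t * a₃ := by
    rcases hcov _ hxT with h | h | h | h | h | h | h | h
    · exact absurd h (hne1 x)
    · exact absurd h hxt
    · exact absurd h (hnc1 x)
    · exact absurd h (hnc2 x)
    · exact absurd h (hnc3 x)
    · exact Or.inl h
    · exact Or.inr (Or.inl h)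
    · exact Or.inr (Or.inr h)
  have hg123 : (∃ g ∈ normalizer (T₀ : Set G), g * t * g⁻¹ = t * z) ∧
      (∃ g ∈ normalizer (T₀ : Set G), g * t * g⁻¹ = t * a₂) ∧
      (∃ g ∈ normalizer (T₀ : Set G), g * t * g⁻¹ = t * a₃) := by
    rcases hxcases with h | h | h
    · obtain ⟨h1, h2⟩ := hshift x z hxN h
      rw [hD12] at h2
      obtain ⟨h3, h4⟩ := hshift _ a₂ h1 h2
      rw [hD23] at h4
      exact ⟨⟨_, hxN, h⟩, ⟨_, h1, h2⟩, ⟨_, h3, h4⟩⟩
    · obtain ⟨h1, h2⟩ := hshift x a₂ hxN h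
      rw [hD23] at h2
      obtain ⟨h3, h4⟩ := hshift _ a₃ h1 h2
      rw [hD31] at h4
      exact ⟨⟨_, h3, h4⟩, ⟨_, hxN, h⟩, ⟨_, h1, h2⟩⟩
    · obtain ⟨h1, h2⟩ := hshift x a₃ hxN h
      rw [hD31] at h2
      obtain ⟨h3, h4⟩ := hshift _ z h1 h2
      rw [hD12] at h4
      exact ⟨⟨_, h1, h2⟩, ⟨_, h3, h4⟩, ⟨_, hxN, h⟩⟩
  obtain ⟨⟨g₁, hg₁N, hg₁⟩, ⟨g₂, hg₂N, hg₂⟩, ⟨g₃, hg₃N, hg₃⟩⟩ := hg123
  have hA : ∀ y ∈ T₀, ∀ g : G, y = g * z * g⁻¹ → y = z ∨ y = a₂ ∨ y = a₃ := by
    intro y hy g hg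
    rcases hcov y hy with h | h | h | h | h | h | h | h
    · rw [h] at hg
      exact absurd (conj_eq_one_iff.1 hg.symm) hz1
    · rw [h] at hg
      exact absurd hg (by simpa using hnc g 1)
    · exact Or.inl h
    · exact Or.inr (Or.inl h)
    · exact Or.inr (Or.inr h)
    · rw [h, ← hg₁] at hg
      exact absurd hg (hnc g g₁)
    · rw [h, ← hg₂] at hg
      exact absurd hg (hnc g g₂)
    · rw [h, ← hg₃] at hg
      exact absurd hg (hnc g g₃)
  have hB : ∀ y ∈ T₀, ∀ g : G, y = g * t * g⁻¹ → y = t ∨ y = t * z ∨ y = t * a₂ ∨ y = t * a₃ := by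
    intro y hy g hg
    rcases hcov y hy with h | h | h | h | h | h | h | h
    · rw [h] at hg
      exact absurd hg.symm (hne1 g)
    · exact Or.inl h
    · rw [h] at hg
      exact absurd hg.symm (hnc1 g)
    · rw [h] at hg
      exact absurd hg.symm (hnc2 g)
    · rw [h] at hg
      exact absurd hg.symm (hnc3 g)
    · exact Or.inr (Or.inl h)
    · exact Or.inr (Or.inr (Or.inl h))
    · exact Or.inr (Or.inr (Or.inr h))
  have hconjA : ∀ y g, y = g * z * g⁻¹ → g ∈ normalizer (T₀ : Set G) → y = z ∨ y = a₂ ∨ y = a₃ := by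
    intro y g hy hg
    refine hA y ?_ g hy
    rw [hy]
    exact (mem_normalizer_iff.1 hg z).1 hz
  have hinj : ∀ g u v : G, g * u * g⁻¹ = g * v * g⁻¹ → u = v := fun g u v h =>
    mul_left_cancel (mul_right_cancel h)
  have hconj_a₂ : ∀ g ∈ normalizer (T₀ : Set G), g * a₂ * g⁻¹ = z ∨ g * a₂ * g⁻¹ = a₂ ∨ g * a₂ * g⁻¹ = a₃ := by
    intro g hg
    refine hA _ ((mem_normalizer_iff.1 hg a₂).1 ha₂T) (g * D) ?_
    rw [ha₂]
    group
  have hconj_a₃ : ∀ g ∈ normalizer (T₀ : Set G), g * a₃ * g⁻¹ = z ∨ g * a₃ * g⁻¹ = a₂ ∨ g * a₃ * g⁻¹ = a₃ := by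
    intro g hg
    refine hA _ ((mem_normalizer_iff.1 hg a₃).1 ha₃T) (g * D⁻¹) ?_
    rw [ha₃]
    group
  have hconj_z : ∀ g ∈ normalizer (T₀ : Set G), g * z * g⁻¹ = z ∨ g * z * g⁻¹ = a₂ ∨ g * z * g⁻¹ = a₃ := by
    intro g hg
    exact hA _ ((mem_normalizer_iff.1 hg z).1 hz) g rfl
  have hxprod : x * (z * a₂ * a₃) * x⁻¹ = z * a₂ * a₃ := by
    have h0 : x * (z * a₂ * a₃) * x⁻¹ = (x * z * x⁻¹) * (x * a₂ * x⁻¹) * (x * a₃ * x⁻¹) := by group
    rw [h0, hxz]
    rcases hconj_a₂ x hxN with h | h | h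
    · exfalso
      apply ne12
      apply hinj x
      rw [h, hxz]
    · rcases hconj_a₃ x hxN with h' | h' | h'
      · exfalso
        apply ne13
        apply hinj x
        rw [h', hxz]
      · exfalso
        apply ne23
        apply hinj x
        rw [h', h]
      · rw [h, h']
    · rcases hconj_a₃ x hxN with h' | h' | h'
      · exfalso
        apply ne13
        apply hinj x
        rw [h', hxz]
      · rw [h, h', mul_assoc, hcomm a₃ ha₃T a₂ ha₂T, mul_assoc]
      · exfalso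
        apply ne23
        apply hinj x
        rw [h', h]
  have hprod1 : z * a₂ * a₃ = 1 := by
    rcases hprod' with h | h
    · exact h
    · exfalso
      rw [h] at hxprod
      exact hxt hxprod
  have ha₃eq : a₃ = z * a₂ := by
    have h1 : (z * a₂) * a₃ * a₃ = z * a₂ := by rw [mul_assoc (z * a₂), ha₃2, mul_one]
    rw [hprod1, one_mul] at h1
    exact h1
  have hza₂ : z * a₂ = a₃ := ha₃eq.symm
  have ha₂z : a₂ * z = a₃ := by rw [hcomm a₂ ha₂T z hz, hza₂]
  have hza₃ : z * a₃ = a₂ := by rw [ha₃eq, ← mul_assoc, hz2, one_mul]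
  have ha₃z : a₃ * z = a₂ := by rw [hcomm a₃ ha₃T z hz, hza₃]
  have ha₂a₃ : a₂ * a₃ = z := by rw [ha₃eq, ← mul_assoc, ha₂z, ha₃eq, mul_assoc, ha₂2, mul_one]
  have ha₃a₂ : a₃ * a₂ = z := by rw [hcomm a₃ ha₃T a₂ ha₂T, ha₂a₃]
  -- the normalizer is large
  have ha₂1 : a₂ ≠ 1 := by
    rw [ha₂]
    intro h
    exact hz1 (conj_eq_one_iff.1 h)
  have ha₃1 : a₃ ≠ 1 := by
    rw [ha₃]
    intro h
    have h1 : D⁻¹ * z * D⁻¹⁻¹ = 1 := by rw [inv_inv]; exact h
    exact hz1 (conj_eq_one_iff.1 h1)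
  have hst : ∀ y : G, y ≠ 1 → t ≠ t * y := fun y hy h => hy (mul_left_cancel (h.symm.trans (mul_one t).symm))
  have hc4 : ({t, t * z, t * a₂, t * a₃} : Finset G).card = 4 := by
    rw [Finset.card_insert_of_notMem, Finset.card_insert_of_notMem, Finset.card_insert_of_notMem, Finset.card_singleton]
    · simp only [Finset.mem_singleton, mul_right_inj]
      exact ne23
    · simp only [Finset.mem_insert, Finset.mem_singleton, mul_right_inj]
      rintro (h | h)
      · exact ne12 h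
      · exact ne13 h
    · simp only [Finset.mem_insert, Finset.mem_singleton]
      rintro (h | h | h)
      · exact hst z hz1 h
      · exact hst a₂ ha₂1 h
      · exact hst a₃ ha₃1 h
  have hN₀ge : 96 ≤ Nat.card (normalizer (T₀ : Set G)) := by
    have hidx : 4 ≤ ((normalizer (T₀ : Set G) ⊓ centralizer ({t} : Set G)).subgroupOf (normalizer (T₀ : Set G))).index := by
      have hS := index_ge_of_images (G := normalizer (T₀ : Set G))
        ((normalizer (T₀ : Set G) ⊓ centralizer ({t} : Set G)).subgroupOf (normalizer (T₀ : Set G)))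
        (fun g => (g : G) * t * (g : G)⁻¹) ({t, t * z, t * a₂, t * a₃} : Finset G) ?_ ?_
      · rwa [hc4] at hS
      · intro b hb
        simp only [Finset.mem_insert, Finset.mem_singleton] at hb
        rcases hb with rfl | rfl | rfl | rfl
        · exact ⟨1, by simp⟩
        · exact ⟨⟨g₁, hg₁N⟩, hg₁⟩
        · exact ⟨⟨g₂, hg₂N⟩, hg₂⟩
        · exact ⟨⟨g₃, hg₃N⟩, hg₃⟩
      · rintro ⟨g, hg⟩ ⟨g', hg'⟩ hgg
        rw [Subgroup.mem_subgroupOf] at hgg
        have h1 : g⁻¹ * g' ∈ centralizer ({t} : Set G) := hgg.2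
        rw [Subgroup.mem_centralizer_singleton_iff] at h1
        exact conj_eq_of_comm h1
    have hcardL : 24 ≤ Nat.card ((normalizer (T₀ : Set G) ⊓ centralizer ({t} : Set G)).subgroupOf (normalizer (T₀ : Set G))) := by
      have h4 : Nat.card ((normalizer (T₀ : Set G) ⊓ centralizer ({t} : Set G)).subgroupOf (normalizer (T₀ : Set G))) =
          Nat.card (normalizer (T₀ : Set G) ⊓ centralizer ({t} : Set G) : Subgroup G) :=
        Nat.card_congr (Subgroup.subgroupOfEquivOfLe inf_le_left).toEquiv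
      rw [h4]
      have h8 : 8 ∣ Nat.card (normalizer (T₀ : Set G) ⊓ centralizer ({t} : Set G) : Subgroup G) := by
        rw [← hT₀]
        apply Subgroup.card_dvd_of_le
        intro g hg
        exact ⟨hT₀N hg, Subgroup.mem_centralizer_singleton_iff.2 (hTX g hg)⟩
      have h3 : 3 ∣ Nat.card (normalizer (T₀ : Set G) ⊓ centralizer ({t} : Set G) : Subgroup G) := by
        have hD3 : D ^ 3 = 1 := by
          rw [pow_succ, pow_two, hDinv]
          simp
        have ho : orderOf D = 3 := orderOf_eq_prime hD3 hD1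
        rw [← ho]
        have hmem : D ∈ (normalizer (T₀ : Set G) ⊓ centralizer ({t} : Set G) : Subgroup G) :=
          ⟨hDnorm, Subgroup.mem_centralizer_singleton_iff.2 hDt⟩
        exact Subgroup.orderOf_dvd_natCard _ hmem
      have h24 : 24 ∣ Nat.card (normalizer (T₀ : Set G) ⊓ centralizer ({t} : Set G) : Subgroup G) :=
        Nat.Coprime.mul_dvd_of_dvd_of_dvd (by norm_num : Nat.Coprime 8 3) h8 h3
      exact Nat.le_of_dvd Nat.card_pos h24
    have h5 := Subgroup.card_mul_index ((normalizer (T₀ : Set G) ⊓ centralizer ({t} : Set G)).subgroupOf (normalizer (T₀ : Set G)))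
    rw [← h5]
    calc 96 = 24 * 4 := by norm_num
      _ ≤ _ := Nat.mul_le_mul hcardL hidx
  -- the subgroup `K`
  obtain ⟨K, hK⟩ : ∃ K : Subgroup G, K = normalizer (T₀ : Set G) ⊓ (centralizer ({z} : Set G) ⊓ centralizer ({a₂} : Set G)) :=
    ⟨_, rfl⟩
  have hKmem : ∀ g, g ∈ K ↔ g ∈ normalizer (T₀ : Set G) ∧ g * z = z * g ∧ g * a₂ = a₂ * g := by
    intro g
    rw [hK, Subgroup.mem_inf, Subgroup.mem_inf, Subgroup.mem_centralizer_singleton_iff,
      Subgroup.mem_centralizer_singleton_iff]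
  have hKcard : 11 ≤ Nat.card K := by
    have h3 := Cfsg.Agent.Lib.SmallA879.card_le_of_fibers (G := normalizer (T₀ : Set G))
      (K.subgroupOf (normalizer (T₀ : Set G)))
      (fun g => ((g : G) * z * (g : G)⁻¹, (g : G) * a₂ * (g : G)⁻¹))
      (({z, a₂, a₃} : Finset G) ×ˢ ({z, a₂, a₃} : Finset G)) ?_ ?_
    · have hKle : K ≤ normalizer (T₀ : Set G) := by rw [hK]; exact inf_le_left
      have h4 : Nat.card (K.subgroupOf (normalizer (T₀ : Set G))) = Nat.card K :=
        Nat.card_congr (Subgroup.subgroupOfEquivOfLe hKle).toEquiv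
      rw [h4] at h3
      have h5 : (({z, a₂, a₃} : Finset G) ×ˢ ({z, a₂, a₃} : Finset G)).card ≤ 9 := by
        rw [Finset.card_product]
        have h6 : ({z, a₂, a₃} : Finset G).card ≤ 3 := Finset.card_le_three
        nlinarith
      have h7 : 96 ≤ Nat.card K * 9 := by
        calc 96 ≤ _ := hN₀ge
          _ ≤ _ := h3
          _ ≤ _ := Nat.mul_le_mul_left _ h5
      omega
    · rintro ⟨g, hg⟩
      simp only [Finset.mem_product, Finset.mem_insert, Finset.mem_singleton]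
      exact ⟨hconj_z g hg, hconj_a₂ g hg⟩
    · rintro ⟨g, hg⟩ ⟨g', hg'⟩ hgg
      have h1 : g * z * g⁻¹ = g' * z * g'⁻¹ := congrArg Prod.fst hgg
      have h2 : g * a₂ * g⁻¹ = g' * a₂ * g'⁻¹ := congrArg Prod.snd hgg
      rw [Subgroup.mem_subgroupOf, hKmem]
      refine ⟨mul_mem (inv_mem hg) hg', ?_, ?_⟩
      · change g⁻¹ * g' * z = z * (g⁻¹ * g')
        calc g⁻¹ * g' * z = g⁻¹ * (g' * z * g'⁻¹) * g' := by group
          _ = g⁻¹ * (g * z * g⁻¹) * g' := by rw [h1]
          _ = z * (g⁻¹ * g') := by group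
      · change g⁻¹ * g' * a₂ = a₂ * (g⁻¹ * g')
        calc g⁻¹ * g' * a₂ = g⁻¹ * (g' * a₂ * g'⁻¹) * g' := by group
          _ = g⁻¹ * (g * a₂ * g⁻¹) * g' := by rw [h2]
          _ = a₂ * (g⁻¹ * g') := by group
  obtain ⟨k, hkK, hkT⟩ : ∃ k ∈ K, k ∉ T₀ := by
    by_contra hall
    push Not at hall
    have h1 : Nat.card K ≤ Nat.card T₀ := Nat.card_le_card_of_injective _ (Subgroup.inclusion_injective hall)
    omega
  have hKa₃ : ∀ g ∈ K, g * a₃ = a₃ * g := by
    intro g hg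
    obtain ⟨-, h1, h2⟩ := (hKmem g).1 hg
    rw [ha₃eq]
    calc g * (z * a₂) = (g * z) * a₂ := by group
      _ = z * (g * a₂) := by rw [h1]; group
      _ = z * a₂ * g := by rw [h2]; group
  have hKD : ∀ g ∈ K, D * g * D⁻¹ ∈ K := by
    intro g hg
    obtain ⟨h0, h1, h2⟩ := (hKmem g).1 hg
    have h3 := hKa₃ g hg
    rw [hKmem]
    refine ⟨mul_mem (mul_mem hDnorm h0) (inv_mem hDnorm), ?_, ?_⟩
    · calc D * g * D⁻¹ * z = D * g * D⁻¹ * (D * a₃ * D⁻¹) := by rw [hD31]
        _ = D * (g * a₃) * D⁻¹ := by group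
        _ = D * (a₃ * g) * D⁻¹ := by rw [h3]
        _ = (D * a₃ * D⁻¹) * (D * g * D⁻¹) := by group
        _ = z * (D * g * D⁻¹) := by rw [hD31]
    · calc D * g * D⁻¹ * a₂ = D * g * D⁻¹ * (D * z * D⁻¹) := by rw [hD12]
        _ = D * (g * z) * D⁻¹ := by group
        _ = D * (z * g) * D⁻¹ := by rw [h1]
        _ = (D * z * D⁻¹) * (D * g * D⁻¹) := by group
        _ = a₂ * (D * g * D⁻¹) := by rw [hD12]
  -- the map to `W`
  have hKW : ∀ g ∈ K, g * t * g⁻¹ = t ∨ g * t * g⁻¹ = t * z ∨ g * t * g⁻¹ = t * a₂ ∨ g * t * g⁻¹ = t * a₃ := by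
    intro g hg
    obtain ⟨h0, -, -⟩ := (hKmem g).1 hg
    exact hB _ ((mem_normalizer_iff.1 h0 t).1 htT) g rfl
  have hab : ∃ a ∈ K, ∃ b ∈ K, a * t * a⁻¹ = t * z ∧ b * t * b⁻¹ = t * a₂ := by
    have hne : k * t * k⁻¹ ≠ t := by
      intro h
      have h1 : k * t = t * k := by
        calc k * t = k * t * k⁻¹ * k := by group
          _ = t * k := by rw [h]
      exact hkT (hcent k h1 ((hKmem k).1 hkK).2.1)
    rcases hKW k hkK with h | h | h | h
    · exact absurd h hne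
    · obtain ⟨-, h2⟩ := hshift k z ((hKmem k).1 hkK).1 h
      rw [hD12] at h2
      exact ⟨k, hkK, _, hKD k hkK, h, h2⟩
    · obtain ⟨-, h2⟩ := hshift k a₂ ((hKmem k).1 hkK).1 h
      rw [hD23] at h2
      obtain ⟨-, h4⟩ := hshift _ a₃ ((hKmem _).1 (hKD k hkK)).1 h2
      rw [hD31] at h4
      exact ⟨_, hKD _ (hKD k hkK), k, hkK, h4, h⟩
    · obtain ⟨-, h2⟩ := hshift k a₃ ((hKmem k).1 hkK).1 h
      rw [hD31] at h2
      obtain ⟨-, h4⟩ := hshift _ z ((hKmem _).1 (hKD k hkK)).1 h2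
      rw [hD12] at h4
      exact ⟨_, hKD k hkK, _, hKD _ (hKD k hkK), h2, h4⟩
  obtain ⟨a, haK, b, hbK, hat, hbt⟩ := hab
  -- the four elements of `W`
  obtain ⟨W, hW⟩ : ∃ W : G → Prop, ∀ v, W v ↔ (v = 1 ∨ v = z ∨ v = a₂ ∨ v = a₃) := ⟨_, fun _ => Iff.rfl⟩
  have hW1 : W 1 := (hW 1).2 (Or.inl rfl)
  have hWz : W z := (hW z).2 (Or.inr (Or.inl rfl))
  have hWa₂ : W a₂ := (hW a₂).2 (Or.inr (Or.inr (Or.inl rfl)))
  have hWa₃ : W a₃ := (hW a₃).2 (Or.inr (Or.inr (Or.inr rfl)))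
  have hWmul : ∀ u v, W u → W v → W (u * v) := by
    intro u v hu hv
    rcases (hW u).1 hu with rfl | rfl | rfl | rfl <;> rcases (hW v).1 hv with rfl | rfl | rfl | rfl <;>
      simp only [one_mul, mul_one, hz2, ha₂2, ha₃2, hza₂, ha₂z, hza₃, ha₃z, ha₂a₃, ha₃a₂] <;> assumption
  have hWT : ∀ v, W v → v ∈ T₀ := by
    intro v hv
    rcases (hW v).1 hv with rfl | rfl | rfl | rfl
    · exact one_mem _
    · exact hz
    · exact ha₂T
    · exact ha₃T
  have hWc : ∀ g ∈ K, ∀ v, W v → g * v = v * g := by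
    intro g hg v hv
    rcases (hW v).1 hv with rfl | rfl | rfl | rfl
    · simp
    · exact ((hKmem g).1 hg).2.1
    · exact ((hKmem g).1 hg).2.2
    · exact hKa₃ g hg
  have hKφ : ∀ g ∈ K, ∃ v, W v ∧ g * t * g⁻¹ = t * v := by
    intro g hg
    rcases hKW g hg with h | h | h | h
    · exact ⟨1, hW1, by rw [h, mul_one]⟩
    · exact ⟨z, hWz, h⟩
    · exact ⟨a₂, hWa₂, h⟩
    · exact ⟨a₃, hWa₃, h⟩
  have hsq : ∀ g ∈ K, W (g * g) := by
    intro g hg
    obtain ⟨v, hv, hφ⟩ := hKφ g hg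
    have hc : (g * g) * t = t * (g * g) := by
      have h1 : g * g * t * (g * g)⁻¹ = t := by
        calc g * g * t * (g * g)⁻¹ = g * (g * t * g⁻¹) * g⁻¹ := by group
          _ = g * (t * v) * g⁻¹ := by rw [hφ]
          _ = (g * t * g⁻¹) * (g * v * g⁻¹) := by group
          _ = (t * v) * (v * g * g⁻¹) := by rw [hφ, hWc g hg v hv]
          _ = t * (v * v) := by group
          _ = t := by rw [hinv v (hWT v hv), mul_one]
      calc g * g * t = g * g * t * (g * g)⁻¹ * (g * g) := by group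
        _ = t * (g * g) := by rw [h1]
    have hgz : g * z = z * g := ((hKmem g).1 hg).2.1
    have hzc : (g * g) * z = z * (g * g) := by
      calc g * g * z = g * (g * z) := by group
        _ = g * (z * g) := by rw [hgz]
        _ = (g * z) * g := by group
        _ = z * g * g := by rw [hgz]
        _ = z * (g * g) := by group
    have hT : g * g ∈ T₀ := hcent _ hc hzc
    have hcase : ∀ v, W v → g * g = t * v → W (g * g) := by
      intro v hv hgv
      have h1 : g * (t * v) = (t * v) * g := by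
        rw [← hgv]
        group
      have h2 : g * v = v * g := hWc g hg v hv
      have h3 : g * t = t * g := by
        apply mul_right_cancel (b := v)
        calc g * t * v = (t * v) * g := by rw [mul_assoc, h1]
          _ = t * (v * g) := by group
          _ = t * (g * v) := by rw [h2]
          _ = t * g * v := by group
      have h4 := hinv g (hcent g h3 hgz)
      rw [h4]
      exact hW1
    rcases hcov _ hT with h | h | h | h | h | h | h | h
    · rw [h]; exact hW1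
    · exact hcase 1 hW1 (by rw [h, mul_one])
    · rw [h]; exact hWz
    · rw [h]; exact hWa₂
    · rw [h]; exact hWa₃
    · exact hcase z hWz h
    · exact hcase a₂ hWa₂ h
    · exact hcase a₃ hWa₃ h
  have hcommW : ∀ a ∈ K, ∀ b ∈ K, ∃ c, W c ∧ b * a = c * (a * b) := by
    intro a ha b hb
    have hw₁ := hsq a ha
    have hw₂ := hsq b hb
    have hw₃ := hsq (a * b) (mul_mem ha hb)
    obtain ⟨w₁, hw₁e⟩ : ∃ w, w = a * a := ⟨_, rfl⟩
    obtain ⟨w₂, hw₂e⟩ : ∃ w, w = b * b := ⟨_, rfl⟩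
    obtain ⟨w₃, hw₃e⟩ : ∃ w, w = a * b * (a * b) := ⟨_, rfl⟩
    rw [← hw₁e] at hw₁
    rw [← hw₂e] at hw₂
    rw [← hw₃e] at hw₃
    have hainv : a⁻¹ = w₁ * a := by
      apply inv_eq_of_mul_eq_one_left
      have := hinv w₁ (hWT w₁ hw₁)
      calc w₁ * a * a = w₁ * (a * a) := by group
        _ = w₁ * w₁ := by rw [hw₁e]
        _ = 1 := this
    have hbinv : b⁻¹ = w₂ * b := by
      apply inv_eq_of_mul_eq_one_left
      have := hinv w₂ (hWT w₂ hw₂)
      calc w₂ * b * b = w₂ * (b * b) := by group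
        _ = w₂ * w₂ := by rw [hw₂e]
        _ = 1 := this
    refine ⟨w₁ * w₃ * w₂, hWmul _ _ (hWmul _ _ hw₁ hw₃) hw₂, ?_⟩
    calc b * a = a⁻¹ * (a * b * (a * b)) * b⁻¹ := by group
      _ = (w₁ * a) * w₃ * (w₂ * b) := by rw [← hw₃e, hainv, hbinv]
      _ = w₁ * (a * w₃) * w₂ * b * (1 : G) := by group
      _ = w₁ * (w₃ * a) * w₂ * b * (1 : G) := by rw [hWc a ha w₃ hw₃]
      _ = w₁ * w₃ * (a * w₂) * b * (1 : G) := by group
      _ = w₁ * w₃ * (w₂ * a) * b * (1 : G) := by rw [hWc a ha w₂ hw₂]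
      _ = w₁ * w₃ * w₂ * (a * b) := by group
  have htK : t ∈ K := by
    rw [hKmem]
    exact ⟨hT₀N htT, (hTX z hz).symm, (hTX a₂ ha₂T).symm⟩
  have hshT : ∀ g v, g * t * g⁻¹ = t * v → t * g = v * g * t := by
    intro g v h
    have h1 : g * t = t * v * g := by
      calc g * t = g * t * g⁻¹ * g := by group
        _ = t * v * g := by rw [h]
    calc t * g = t * g * (t * t) := by rw [ht2, mul_one]
      _ = t * (g * t) * t := by group
      _ = t * (t * v * g) * t := by rw [h1]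
      _ = (t * t) * v * g * t := by group
      _ = v * g * t := by rw [ht2, one_mul]
  have hta := hshT a z hat
  have htb := hshT b a₂ hbt
  have hgz : b * z = z * b := ((hKmem b).1 hbK).2.1
  have hga : a * a₂ = a₂ * a := ((hKmem a).1 haK).2.2
  have hAB : ∃ A ∈ K, ∃ B ∈ K, A * B = B * A ∧ A * t * A⁻¹ = t * z ∧ B * t * B⁻¹ = t * a₂ := by
    obtain ⟨c, hc, hba⟩ := hcommW a haK b hbK
    have hat' : (a * t) * t * (a * t)⁻¹ = t * z := by
      rw [← hat]
      group
    have hbt' : (b * t) * t * (b * t)⁻¹ = t * a₂ := by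
      rw [← hbt]
      group
    rcases (hW c).1 hc with hc1 | hc1 | hc1 | hc1 <;> rw [hc1] at hba
    · refine ⟨a, haK, b, hbK, ?_, hat, hbt⟩
      rw [hba, one_mul]
    · refine ⟨a, haK, b * t, mul_mem hbK htK, ?_, hat, hbt'⟩
      symm
      calc b * t * a = b * (t * a) := by group
        _ = b * (z * a * t) := by rw [hta]
        _ = (b * z) * a * t := by group
        _ = z * (b * a) * t := by rw [hgz]; group
        _ = z * (z * (a * b)) * t := by rw [hba]
        _ = (z * z) * (a * b) * t := by group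
        _ = a * (b * t) := by rw [hz2]; group
    · refine ⟨a * t, mul_mem haK htK, b, hbK, ?_, hat', hbt⟩
      calc a * t * b = a * (t * b) := by group
        _ = a * (a₂ * b * t) := by rw [htb]
        _ = (a * a₂) * b * t := by group
        _ = a₂ * (a * b) * t := by rw [hga]; group
        _ = (b * a) * t := by rw [hba]
        _ = b * (a * t) := by group
    · refine ⟨a * t, mul_mem haK htK, b * t, mul_mem hbK htK, ?_, hat', hbt'⟩
      have e1 : a * t * (b * t) = a₂ * (a * b) := by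
        calc a * t * (b * t) = a * (t * b) * t := by group
          _ = a * (a₂ * b * t) * t := by rw [htb]
          _ = (a * a₂) * b * (t * t) := by group
          _ = a₂ * (a * b) := by rw [hga, ht2]; group
      have e2 : b * t * (a * t) = a₂ * (a * b) := by
        calc b * t * (a * t) = b * (t * a) * t := by group
          _ = b * (z * a * t) * t := by rw [hta]
          _ = (b * z) * a * (t * t) := by group
          _ = z * (b * a) := by rw [hgz, ht2]; group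
          _ = z * (a₃ * (a * b)) := by rw [hba]
          _ = (z * a₃) * (a * b) := by group
          _ = a₂ * (a * b) := by rw [hza₃]
      rw [e1, e2]
  obtain ⟨A, hAK, B, hBK, hABc, hAt, hBt⟩ := hAB
  -- the abelian subgroup
  obtain ⟨S, hSdef⟩ : ∃ S : Set G, S = {z, a₂, A, B} := ⟨_, rfl⟩
  have hSz : z ∈ S := by rw [hSdef]; simp
  have hSa₂ : a₂ ∈ S := by rw [hSdef]; simp
  have hSA : A ∈ S := by rw [hSdef]; simp
  have hSB : B ∈ S := by rw [hSdef]; simp
  have hSle : S ⊆ (centralizer S : Subgroup G) := by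
    intro u hu
    rw [SetLike.mem_coe, Subgroup.mem_centralizer_iff]
    intro v hv
    rw [hSdef] at hu hv
    simp only [Set.mem_insert_iff, Set.mem_singleton_iff] at hu hv
    have hAz := ((hKmem A).1 hAK).2.1
    have hAa := ((hKmem A).1 hAK).2.2
    have hBz := ((hKmem B).1 hBK).2.1
    have hBa := ((hKmem B).1 hBK).2.2
    have hza := hcomm z hz a₂ ha₂T
    rcases hu with rfl | rfl | rfl | rfl <;> rcases hv with rfl | rfl | rfl | rfl <;>
      first
        | rfl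
        | assumption
        | (symm; assumption)
  obtain ⟨R, hRdef⟩ : ∃ R : Subgroup G, R = closure S := ⟨_, rfl⟩
  have hRcomm : ∀ g ∈ R, ∀ h ∈ R, g * h = h * g := by
    intro g hg h hh
    rw [hRdef] at hg hh
    have h1 := Subgroup.closure_le_centralizer_centralizer S hg
    have h2 : closure S ≤ centralizer S := (Subgroup.closure_le _).2 hSle
    have h3 := h2 hh
    rw [Subgroup.mem_centralizer_iff] at h1
    exact (h1 h h3).symm
  have hzK : z ∈ K := by
    rw [hKmem]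
    exact ⟨hT₀N hz, rfl, hcomm z hz a₂ ha₂T⟩
  have ha₂K : a₂ ∈ K := by
    rw [hKmem]
    exact ⟨hT₀N ha₂T, hcomm a₂ ha₂T z hz, rfl⟩
  have hRK : R ≤ K := by
    rw [hRdef, Subgroup.closure_le]
    intro u hu
    rw [hSdef] at hu
    simp only [Set.mem_insert_iff, Set.mem_singleton_iff] at hu
    rcases hu with rfl | rfl | rfl | rfl
    · exact hzK
    · exact ha₂K
    · exact hAK
    · exact hBK
  have hzR : z ∈ R := by rw [hRdef]; exact subset_closure hSz
  have ha₂R : a₂ ∈ R := by rw [hRdef]; exact subset_closure hSa₂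
  have hAR : A ∈ R := by rw [hRdef]; exact subset_closure hSA
  have hBR : B ∈ R := by rw [hRdef]; exact subset_closure hSB
  have hR2 : IsPGroup 2 R := by
    rintro ⟨g, hg⟩
    refine ⟨2, ?_⟩
    apply Subtype.ext
    have h1 := hinv _ (hWT _ (hsq g (hRK hg)))
    have h2 : g ^ (2 ^ 2) = (g * g) * (g * g) := by
      simp only [pow_succ, pow_zero, one_mul, Nat.reduceMul, mul_assoc]
    change g ^ (2 ^ 2) = 1
    rw [h2, h1]
  have hRcard : 16 ≤ Nat.card R := by
    have hidx : 4 ≤ ((R ⊓ centralizer ({t} : Set G)).subgroupOf R).index := by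
      have hS := index_ge_of_images (G := R)
        ((R ⊓ centralizer ({t} : Set G)).subgroupOf R)
        (fun g => (g : G) * t * (g : G)⁻¹) ({t, t * z, t * a₂, t * a₃} : Finset G) ?_ ?_
      · rwa [hc4] at hS
      · intro b hb
        simp only [Finset.mem_insert, Finset.mem_singleton] at hb
        rcases hb with rfl | rfl | rfl | rfl
        · exact ⟨1, by simp⟩
        · exact ⟨⟨A, hAR⟩, hAt⟩
        · exact ⟨⟨B, hBR⟩, hBt⟩
        · refine ⟨⟨A * B, mul_mem hAR hBR⟩, ?_⟩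
          change (A * B) * t * (A * B)⁻¹ = t * a₃
          calc (A * B) * t * (A * B)⁻¹ = A * (B * t * B⁻¹) * A⁻¹ := by group
            _ = A * (t * a₂) * A⁻¹ := by rw [hBt]
            _ = (A * t * A⁻¹) * (A * a₂ * A⁻¹) := by group
            _ = (t * z) * (a₂ * A * A⁻¹) := by rw [hAt, ((hKmem A).1 hAK).2.2]
            _ = t * (z * a₂) := by group
            _ = t * a₃ := by rw [hza₂]
      · rintro ⟨g, hg⟩ ⟨g', hg'⟩ hgg
        rw [Subgroup.mem_subgroupOf] at hgg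
        have h1 : g⁻¹ * g' ∈ centralizer ({t} : Set G) := hgg.2
        rw [Subgroup.mem_centralizer_singleton_iff] at h1
        exact conj_eq_of_comm h1
    have hcard4 : 4 ≤ Nat.card ((R ⊓ centralizer ({t} : Set G)).subgroupOf R) := by
      have h4 : Nat.card ((R ⊓ centralizer ({t} : Set G)).subgroupOf R) =
          Nat.card (R ⊓ centralizer ({t} : Set G) : Subgroup G) :=
        Nat.card_congr (Subgroup.subgroupOfEquivOfLe inf_le_left).toEquiv
      rw [h4]
      have hc : ({1, z, a₂, a₃} : Finset G).card = 4 := by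
        rw [Finset.card_insert_of_notMem, Finset.card_insert_of_notMem, Finset.card_insert_of_notMem, Finset.card_singleton]
        · simpa using ne23
        · simp only [Finset.mem_insert, Finset.mem_singleton]
          rintro (h | h)
          · exact ne12 h
          · exact ne13 h
        · simp only [Finset.mem_insert, Finset.mem_singleton]
          rintro (h | h | h)
          · exact hz1 h.symm
          · exact ha₂1 h.symm
          · exact ha₃1 h.symm
      rw [← hc]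
      apply card_ge_of_finset
      intro s hs
      simp only [Finset.mem_insert, Finset.mem_singleton] at hs
      have hza₃R : a₃ ∈ R := by rw [← hza₂]; exact mul_mem hzR ha₂R
      rcases hs with rfl | rfl | rfl | rfl
      · exact one_mem _
      · exact ⟨hzR, Subgroup.mem_centralizer_singleton_iff.2 (hTX _ hz)⟩
      · exact ⟨ha₂R, Subgroup.mem_centralizer_singleton_iff.2 (hTX _ ha₂T)⟩
      · exact ⟨hza₃R, Subgroup.mem_centralizer_singleton_iff.2 (hTX _ ha₃T)⟩
    have h5 := Subgroup.card_mul_index ((R ⊓ centralizer ({t} : Set G)).subgroupOf R)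
    rw [← h5]
    calc 16 = 4 * 4 := by norm_num
      _ ≤ _ := Nat.mul_le_mul hcard4 hidx
  obtain ⟨n, hn⟩ := IsPGroup.iff_card.1 hR2
  have h4n : 4 ≤ n := by
    by_contra hlt
    have : n ≤ 3 := by omega
    have h1 : 2 ^ n ≤ 2 ^ 3 := Nat.pow_le_pow_right (by norm_num) this
    rw [hn] at hRcard
    omega
  obtain ⟨M', hM'⟩ := Sylow.exists_subgroup_card_pow_prime (G := R) 2 (n := 4)
    (by rw [hn]; exact pow_dvd_pow 2 h4n)
  obtain ⟨M, hM⟩ : ∃ M : Subgroup G, M = M'.map R.subtype := ⟨_, rfl⟩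
  have hMc : Nat.card M = 16 := by
    rw [hM]
    have : Nat.card (M'.map R.subtype) = Nat.card M' :=
      Nat.card_congr (Subgroup.equivMapOfInjective M' _ R.subtype_injective).symm.toEquiv
    rw [this, hM']
    norm_num
  have hMcomm : ∀ g ∈ M, ∀ h ∈ M, g * h = h * g := by
    intro g hg h hh
    rw [hM] at hg hh
    obtain ⟨g', -, rfl⟩ := hg
    obtain ⟨h', -, rfl⟩ := hh
    exact hRcomm _ g'.2 _ h'.2
  have hMidx : M.index = 2 * 135 := by
    have h1 := Subgroup.card_mul_index M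
    rw [hMc, hG] at h1
    omega
  obtain ⟨g, hg⟩ := Cfsg.Agent.Lib.D8CentGroup.exists_conj_mem hperf M 135 (by decide) hMidx t (by rw [pow_two, ht2])
  have hfin := card_dvd_of_conj_central (T := M) (z := g⁻¹ * t * g) (t := t) (fun s hs => hMcomm s hs _ hg) g (by group)
  rw [hMc, hX] at hfin
  revert hfin
  decide

/-- The structural form of the contradiction. -/
theorem contra_of_structure (hperf : commutator G = ⊤) (hG : Nat.card G = 4320) (t D : G) (T₀ : Subgroup G)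
    (ht2 : t * t = 1) (ht1 : t ≠ 1) (hX : Nat.card (centralizer ({t} : Set G)) = 120)
    (hT₀ : Nat.card T₀ = 8) (htT : t ∈ T₀) (hTX : ∀ g ∈ T₀, g * t = t * g)
    (hDt : D * t = t * D) (hDinv : D * D = D⁻¹) (hDN : ∀ g ∈ T₀, D * g * D⁻¹ ∈ T₀) (hD1 : D ≠ 1)
    (hcov : ∀ z ∈ T₀, z ≠ 1 → z ≠ t → ∀ y ∈ T₀, y = 1 ∨ y = t ∨ y = z ∨ y = D * z * D⁻¹ ∨ y = D⁻¹ * z * D ∨
      y = t * z ∨ y = t * (D * z * D⁻¹) ∨ y = t * (D⁻¹ * z * D))
    (hne : ∀ z ∈ T₀, z ≠ 1 → z ≠ t → z ≠ D * z * D⁻¹ ∧ z ≠ D⁻¹ * z * D ∧ D * z * D⁻¹ ≠ D⁻¹ * z * D)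
    (hprod : ∀ z ∈ T₀, z ≠ 1 → z ≠ t → z * (D * z * D⁻¹) * (D⁻¹ * z * D) = 1 ∨ z * (D * z * D⁻¹) * (D⁻¹ * z * D) = t)
    (hcent : ∀ z ∈ T₀, z ≠ 1 → z ≠ t → ∀ k, k * t = t * k → k * z = z * k → k ∈ T₀) : False := by
  classical
  haveI : Fact (Nat.Prime 2) := ⟨Nat.prime_two⟩
  have hT₀p : IsPGroup 2 T₀ := IsPGroup.of_card (n := 3) (by rw [hT₀]; norm_num)
  obtain ⟨T, hTle⟩ := hT₀p.exists_le_sylow
  have hTc : Nat.card (T : Subgroup G) = 32 := by
    have := Cfsg.Agent.Lib.SmallGroups2.sylow_card_of_card_eq (p := 2) (a := 5) (m := 135)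
      (by rw [hG]; norm_num) (by norm_num) T
    simpa using this
  have hinter : ∀ g ∈ (T : Subgroup G), g * t = t * g → g ∈ T₀ := by
    intro g hgT hgt
    have h1 : T₀ ≤ (T : Subgroup G) ⊓ centralizer ({t} : Set G) :=
      le_inf hTle (fun u hu => Subgroup.mem_centralizer_singleton_iff.2 (hTX u hu))
    have h2 : Nat.card ((T : Subgroup G) ⊓ centralizer ({t} : Set G) : Subgroup G) ∣ 32 := by
      rw [← hTc]; exact Subgroup.card_dvd_of_le inf_le_left
    have h3 : Nat.card ((T : Subgroup G) ⊓ centralizer ({t} : Set G) : Subgroup G) ∣ 120 := by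
      rw [← hX]; exact Subgroup.card_dvd_of_le inf_le_right
    have h4 := Nat.le_of_dvd (by norm_num) (Nat.dvd_gcd h2 h3)
    have h5 : Nat.gcd 32 120 = 8 := by norm_num
    rw [h5] at h4
    have h6 := Subgroup.eq_of_le_of_card_ge h1 (by rw [hT₀]; exact h4)
    rw [h6]
    exact ⟨hgT, Subgroup.mem_centralizer_singleton_iff.2 hgt⟩
  obtain ⟨k, hk0, hk⟩ := IsPGroup.card_center_eq_prime_pow (p := 2) (n := 5) (G := (T : Subgroup G))
    (by rw [hTc]; norm_num) (by norm_num)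
  obtain ⟨z0, hz0⟩ := exists_prime_orderOf_dvd_card' (G := center (T : Subgroup G)) 2
    (by rw [hk]; exact dvd_pow_self 2 hk0.ne')
  obtain ⟨z, hzdef⟩ : ∃ z : G, z = ((z0 : (T : Subgroup G)) : G) := ⟨_, rfl⟩
  have hzo : orderOf z = 2 := by
    rw [hzdef, Subgroup.orderOf_coe, Subgroup.orderOf_coe]
    exact hz0
  have hz2 : z * z = 1 := by
    rw [← pow_two, ← hzo]
    exact pow_orderOf_eq_one z
  have hz1 : z ≠ 1 := by
    intro h
    rw [h, orderOf_one] at hzo
    omega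
  have hzT : z ∈ (T : Subgroup G) := by
    rw [hzdef]
    exact (z0 : (T : Subgroup G)).2
  have hzc : ∀ s ∈ (T : Subgroup G), s * z = z * s := by
    intro s hs
    have h1 := (Subgroup.mem_center_iff.1 z0.2) ⟨s, hs⟩
    have h2 := congrArg Subtype.val h1
    rw [hzdef]
    exact h2
  have h32 : ¬ (32 ∣ 120) := by decide
  have hzt : z ≠ t := by
    intro h
    have h1 := card_dvd_of_conj_central (T := (T : Subgroup G)) hzc (t := t) 1 (by rw [h]; group)
    rw [hTc, hX] at h1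
    exact h32 h1
  have hzT₀ : z ∈ T₀ := hinter z hzT (hzc t (hTle htT)).symm
  have hnc : ∀ g h : G, h * t * h⁻¹ ≠ g * z * g⁻¹ := by
    intro g h e
    have h1 := card_dvd_of_conj_central (T := (T : Subgroup G)) hzc (t := t) (h⁻¹ * g) (by
      calc h⁻¹ * g * z * (h⁻¹ * g)⁻¹ = h⁻¹ * (g * z * g⁻¹) * h := by group
        _ = h⁻¹ * (h * t * h⁻¹) * h := by rw [e]
        _ = t := by group)
    rw [hTc, hX] at h1
    exact h32 h1
  have hlt : T₀ < (T : Subgroup G) := by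
    refine lt_of_le_of_ne hTle ?_
    intro h
    rw [h, hTc] at hT₀
    omega
  obtain ⟨x, hxT, hxT₀, hxN⟩ := Cfsg.Agent.Lib.TwoLocal.exists_mem_normalizer_of_lt (q := 2) T.isPGroup' hlt
  obtain ⟨h12, h13, h23⟩ := hne z hzT₀ hz1 hzt
  refine contra_of_data (t := t) (D := D) (z := z) (a₂ := D * z * D⁻¹) (a₃ := D⁻¹ * z * D) (T₀ := T₀)
    ⟨ht2, ht1, hX, hT₀, htT, hTX, hDt, hDinv, hDN, hD1, hcov z hzT₀ hz1 hzt, rfl, rfl, hzT₀, hz2, hz1, h12, h13, h23,
      hcent z hzT₀ hz1 hzt, hnc, hprod z hzT₀ hz1 hzt, ⟨x, hxN, ?_, ?_⟩, hperf, hG⟩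
  · rw [hzc x hxT]
    group
  · intro h
    apply hxT₀
    apply hinter x hxT
    calc x * t = x * t * x⁻¹ * x := by group
      _ = t * x := by rw [h]

end Cfsg.Agent.Lib.O4320Abs79
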