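import Mathlib
import Cfsg.Agent.Lib.TwoLocal2
import Cfsg.Agent.Lib.SmallGroups3
import Cfsg.Agent.Lib.Small168
import Cfsg.Agent.S1019
import Cfsg.Agent.S0991

/-!
# Groups of order 4320: common lemmas
-/

set_option autoImplicit false
set_option linter.style.haveILetI false

namespace Cfsg.Agent.Lib.O4320Base79

open Subgroup Cfsg.Agent.Lib.SmallGroups2 Cfsg.Agent.Lib.TwoLocal Cfsg.Agent.Lib.TwoLocal2

variable {G : Type*} [Group G] [Finite G]

/-- Every proper subgroup of a simple group of order 4320 has index at least nine. -/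
theorem index_ge_nine [IsSimpleGroup G] (h : Nat.card G = 4320) (H : Subgroup G) (hH : H ≠ ⊤) : 9 ≤ H.index := by
  by_contra hlt
  have hG : ¬ IsMulCommutative G := not_isMulCommutative_of_not_prime (by rw [h]; norm_num)
  obtain ⟨f, hf⟩ := Cfsg.Agent.S0991.result hG H hH
  have h1 : H.index ≠ 1 := fun h1 => hH (Subgroup.index_eq_one.1 h1)
  have h0 : H.index ≠ 0 := Subgroup.index_ne_zero_of_finite
  have hd : Nat.card G ∣ Nat.card (alternatingGroup (Fin H.index)) := Subgroup.card_dvd_of_injective f hf
  haveI : Nontrivial (Fin H.index) := by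
    apply Fin.nontrivial_iff_two_le.2
    omega
  have h2 := two_mul_nat_card_alternatingGroup (α := Fin H.index)
  rw [Nat.card_eq_fintype_card (α := Equiv.Perm (Fin H.index)), Fintype.card_perm, Fintype.card_fin] at h2
  rw [h] at hd
  have h3 : 2 * 4320 ∣ (H.index).factorial := by
    rw [← h2]
    exact Nat.mul_dvd_mul_left 2 hd
  have h4 : H.index ≤ 8 := by omega
  have h5 : H.index.factorial ∣ (8 : ℕ).factorial := Nat.factorial_dvd_factorial h4
  have h6 := h3.trans h5
  revert h6
  decide

/-- Any subgroup of order at least `481` of a simple group of order `4320` is everything. -/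
theorem eq_top_of_card_gt [IsSimpleGroup G] (h : Nat.card G = 4320) (H : Subgroup G) (hc : 480 < Nat.card H) : H = ⊤ := by
  by_contra hH
  have h1 := index_ge_nine h H hH
  have h2 := Subgroup.card_mul_index H
  rw [h] at h2
  nlinarith

/-- Fixed points on the Sylow subgroups and on cosets of the normalizer. -/
theorem card_fixedBy_sylow_eq {p : ℕ} [Fact p.Prime] (P : Sylow p G) (x : G) :
    Nat.card (MulAction.fixedBy (Sylow p G) x) =
      Nat.card (MulAction.fixedBy (G ⧸ MulAction.stabilizer G P) x) := by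
  classical
  let f : G ⧸ MulAction.stabilizer G P → Sylow p G := MulAction.ofQuotientStabilizer G P
  have hf : Function.Injective f := MulAction.injective_ofQuotientStabilizer G P
  have hs : Function.Surjective f := by
    intro Q
    obtain ⟨g, hg⟩ := MulAction.exists_smul_eq G P Q
    exact ⟨(g : G ⧸ MulAction.stabilizer G P), hg⟩
  let e : G ⧸ MulAction.stabilizer G P ≃ Sylow p G := Equiv.ofBijective f ⟨hf, hs⟩
  have hsm : ∀ (g : G) (q : G ⧸ MulAction.stabilizer G P), f (g • q) = g • f q :=
    fun g q => MulAction.ofQuotientStabilizer_smul G P g q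
  symm
  refine Nat.card_congr (Equiv.subtypeEquiv e ?_)
  intro q
  rw [MulAction.mem_fixedBy, MulAction.mem_fixedBy]
  constructor
  · intro hq
    change x • f q = f q
    rw [← hsm, hq]
  · intro hq
    apply hf
    rw [hsm]
    exact hq

/-- The double count for Sylow subgroups. -/
theorem fix_mul_class {p : ℕ} [Fact p.Prime] (P : Sylow p G) {x : G}
    (hx : x ∈ normalizer ((P : Subgroup G) : Set G)) :
    Nat.card (MulAction.fixedBy (Sylow p G) x) * Nat.card {g : G // IsConj x g} =
      Nat.card (Sylow p G) * Nat.card {g : G // IsConj x g ∧ g ∈ normalizer ((P : Subgroup G) : Set G)} := by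
  have hS : MulAction.stabilizer G P = normalizer ((P : Subgroup G) : Set G) := Sylow.stabilizer_eq_normalizer P
  have h1 := Cfsg.Agent.S1019.result (MulAction.stabilizer G P) x (by rw [hS]; exact hx)
  rw [← card_fixedBy_sylow_eq] at h1
  rw [h1, hS]
  congr 1
  rw [Sylow.card_eq_index_normalizer]
  rfl

/-- An element of the normalizer of a subgroup of prime order whose order is prime to `p - 1` centralizes it. -/
theorem mem_centralizer_of_coprime {p : ℕ} [Fact p.Prime] (P : Sylow p G) (hP : Nat.card (P : Subgroup G) = p) {x : G}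
    (hx : x ∈ normalizer ((P : Subgroup G) : Set G)) (hc : (orderOf x).Coprime (p - 1)) :
    x ∈ centralizer ((P : Subgroup G) : Set G) := by
  have hpp : p.Prime := Fact.out
  let φ := (P : Subgroup G).normalizerMonoidHom
  haveI hcyc : IsCyclic (P : Subgroup G) := isCyclic_of_prime_card hP
  have h3 : Nat.card (MulAut (P : Subgroup G)) = p - 1 := by
    rw [IsCyclic.card_mulAut, hP, Nat.totient_prime hpp]
  let x' : normalizer ((P : Subgroup G) : Set G) := ⟨x, hx⟩
  have h1 : φ x' ^ (orderOf x) = 1 := by
    rw [← map_pow]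
    have : x' ^ (orderOf x) = 1 := by
      apply Subtype.ext
      simp [x', pow_orderOf_eq_one]
    rw [this, map_one]
  have h2 : φ x' ^ (p - 1) = 1 := by
    rw [← h3]
    exact pow_card_eq_one'
  have h4 : φ x' = 1 := by
    have h5 := orderOf_dvd_of_pow_eq_one h1
    have h6 := orderOf_dvd_of_pow_eq_one h2
    have h7 := Nat.eq_one_of_dvd_coprimes hc h5 h6
    exact orderOf_eq_one_iff.1 h7
  have h8 : x' ∈ φ.ker := h4
  rw [Subgroup.normalizerMonoidHom_ker, Subgroup.mem_subgroupOf] at h8
  exact h8

theorem case16 [IsSimpleGroup G] (h : Nat.card G = 4320) (hn : Nat.card (Sylow 5 G) = 16) : False := by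
  classical
  haveI : Fact (Nat.Prime 5) := ⟨by norm_num⟩
  haveI : Fact (Nat.Prime 3) := ⟨by norm_num⟩
  have hG : ¬ IsMulCommutative G := not_isMulCommutative_of_not_prime (by rw [h]; norm_num)
  obtain ⟨P⟩ : Nonempty (Sylow 5 G) := inferInstance
  have hP : Nat.card (P : Subgroup G) = 5 := by
    rw [sylow_card_of_card_eq (p := 5) (a := 1) (m := 864) (by rw [h]; norm_num) (by norm_num) P, pow_one]
  have hN : Nat.card (normalizer ((P : Subgroup G) : Set G)) = 270 := by
    have h1 := card_normalizer_mul_card_sylow P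
    rw [h, hn] at h1
    omega
  obtain ⟨R, hRN, hR⟩ := exists_subgroup_le_card (q := 3) (a := 3) (normalizer ((P : Subgroup G) : Set G))
    (by rw [hN]; norm_num)
  -- a Sylow subgroup different from `P`
  obtain ⟨Q, hQ⟩ : ∃ Q : Sylow 5 G, Q ≠ P := by
    by_contra hall
    push Not at hall
    have : Subsingleton (Sylow 5 G) := ⟨fun a b => (hall a).trans (hall b).symm⟩
    have h1 : Nat.card (Sylow 5 G) = 1 := Nat.card_of_subsingleton P
    omega
  -- the orbit of `Q` under `R` misses `P`
  have horb : Nat.card (MulAction.orbit R Q) ≤ 15 := by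
    let f : MulAction.orbit R Q → {X : Sylow 5 G // X ≠ P} := fun x => ⟨x.1, by
      obtain ⟨r, hr⟩ := x.2
      intro hx
      apply hQ
      have h1 : (r : G) • Q = P := by
        have : (r • Q : Sylow 5 G) = (r : G) • Q := rfl
        rw [← this, ← hx]
        exact hr
      have h2 : (r : G) • P = P := Sylow.smul_eq_iff_mem_normalizer.2 (hRN r.2)
      have h3 : Q = (r : G)⁻¹ • P := by rw [← h1, inv_smul_smul]
      have h4 : (r : G)⁻¹ • P = P := by
        conv_lhs => rw [← h2]
        rw [inv_smul_smul]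
      rw [h3, h4]⟩
    have hf : Function.Injective f := by
      intro a b hab
      apply Subtype.ext
      exact congrArg (fun y : {X : Sylow 5 G // X ≠ P} => y.1) hab
    have h1 := Nat.card_le_card_of_injective f hf
    have h2 : Nat.card {X : Sylow 5 G // X ≠ P} = 15 := by
      haveI : Fintype (Sylow 5 G) := Fintype.ofFinite _
      rw [Nat.card_eq_fintype_card, Fintype.card_subtype_compl, Fintype.card_subtype_eq, ← Nat.card_eq_fintype_card, hn]
    omega
  have hmul : Nat.card (MulAction.orbit R Q) * Nat.card (MulAction.stabilizer R Q) = 27 := by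
    rw [← Nat.card_prod, Nat.card_congr (MulAction.orbitProdStabilizerEquivGroup R Q), hR]
    norm_num
  have h3 : 3 ∣ Nat.card (MulAction.stabilizer R Q) := by
    have h4 : Nat.card (MulAction.stabilizer R Q) ∣ 3 ^ 3 := ⟨Nat.card (MulAction.orbit R Q), by rw [mul_comm]; omega⟩
    obtain ⟨k, hk, hk'⟩ := (Nat.dvd_prime_pow Nat.prime_three).1 h4
    rcases k with _ | k
    · rw [hk', pow_zero, mul_one] at hmul
      omega
    · rw [hk', pow_succ]
      exact dvd_mul_left _ _
  obtain ⟨c, hc⟩ := exists_prime_orderOf_dvd_card' 3 h3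
  have hc' : orderOf (((c : R) : G)) = 3 := by
    rw [← hc, Subgroup.orderOf_coe, Subgroup.orderOf_coe]
  have hcQ : ((c : R) : G) • Q = Q := c.2
  have hcN : ((c : R) : G) ∈ normalizer ((P : Subgroup G) : Set G) := hRN (c : R).2
  have hcC := mem_centralizer_of_coprime P hP hcN (by rw [hc']; norm_num)
  obtain ⟨h1, h2, -, h4⟩ := fixedBy_facts hG (p := 5) (q := 3) ⟨864, by rw [h]⟩ P hcC hc'
  rw [hn] at h2 h4
  have hP2 : ((c : R) : G) • P = P := Sylow.smul_eq_iff_mem_normalizer.2 hcN
  have h5 : 2 ≤ Nat.card (MulAction.fixedBy (Sylow 5 G) ((c : R) : G)) := by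
    have : Nontrivial (MulAction.fixedBy (Sylow 5 G) ((c : R) : G)) :=
      ⟨⟨⟨P, hP2⟩, ⟨Q, hcQ⟩, fun he => hQ (congrArg Subtype.val he).symm⟩⟩
    exact Finite.one_lt_card
  omega

end Cfsg.Agent.Lib.O4320Base79
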