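import Mathlib
import Cfsg.Agent.Lib.O4320Base79
import Cfsg.Agent.Lib.DefectTwo
import Cfsg.Agent.Lib.CharKernel

/-!
# Groups of order 4320: the self-centralizing case with `|N(P)| = 20`
-/

set_option autoImplicit false
set_option linter.style.haveILetI false
set_option linter.unusedSectionVars false

namespace Cfsg.Agent.Lib.O4320Char79

open Subgroup Cfsg Cfsg.Agent.Lib.CharBasic Cfsg.Agent.Lib.DefectOne Cfsg.Agent.Lib.DefectTwo
open scoped ComplexConjugate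

variable {G : Type*} [Group G] [Fintype G] {P : Subgroup G} 

/-- The basic data of the exceptional generalized character for `p = 5`, `s = 4`. -/
theorem data_s4 (H : Hyp P 5) (hN : Nat.card (normalizer (P : Set G)) = 5 * 4) :
    ∃ (f : ↥P →* ℂˣ) (m : IrrCharacter G → ℤ) (d : IrrCharacter G → ℕ), f ≠ 1 ∧
      (∀ i, 0 < d i ∧ (i : G → ℂ) 1 = d i) ∧ (∀ i : IrrCharacter G, classInner (theta P f) (i : G → ℂ) = m i) ∧
      ∑ i, m i ^ 2 = 5 ∧ m (oneIrr G) = -1 ∧ ∑ i, (d i : ℤ) * m i = 0 ∧ ∀ i, (d i : ℤ) ≡ - m i [ZMOD 5] := by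
  classical
  haveI : Fact (Nat.Prime 5) := ⟨H.prime⟩
  haveI : Fintype ↥P := Fintype.ofFinite _
  haveI : Fintype (normalizer (P : Set G)) := Fintype.ofFinite _
  haveI : Finite (↥P →* ℂˣ) := H.finite_dual
  haveI : Fintype (↥P →* ℂˣ) := Fintype.ofFinite _
  -- a nontrivial character
  obtain ⟨w, hw⟩ : ∃ w : ↥P, w ≠ 1 := by
    haveI : Nontrivial ↥P := by
      apply Finite.one_lt_card_iff_nontrivial.1
      rw [H.card]
      norm_num
    exact exists_ne 1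
  obtain ⟨f, hf'⟩ := H.exists_ne_one hw
  have hf : f ≠ 1 := by
    rintro rfl
    exact hf' (by simp)
  have hm : ∀ (g : ↥P →* ℂˣ) (i : IrrCharacter G), ∃ n : ℤ, classInner (theta P g) (i : G → ℂ) = n :=
    fun g i => Cfsg.Agent.Lib.GenChar.classInner_gen_irr (theta_isGen g) i.2
  choose m hm using hm
  have hdeg : ∀ i : IrrCharacter G, ∃ n : ℕ, 0 < n ∧ (i : G → ℂ) 1 = n :=
    fun i => Cfsg.Agent.Lib.CharLattice.exists_degree_pos i.2
  choose d hdpos hd using hdeg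
  -- the orbit of `f` is everything
  have hcardNT : Fintype.card (NT P) = 4 := by
    have h1 : Fintype.card (NT P) = Fintype.card (↥P →* ℂˣ) - 1 := by
      rw [Fintype.card_subtype_compl, Fintype.card_subtype_eq]
    rw [h1, ← Nat.card_eq_fintype_card, H.card_dual]
  let f' : NT P := ⟨f, hf⟩
  have horb : ∀ a : NT P, ∃ x : normalizer (P : Set G), x • f' = a := by
    have h1 := H.card_orbit (s := 4) hN f'
    haveI : Fintype (MulAction.orbit ↥(normalizer (P : Set G)) f') := Fintype.ofFinite _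
    have h3 : (MulAction.orbit ↥(normalizer (P : Set G)) f').toFinset = Finset.univ :=
      Finset.eq_univ_of_card _ (by rw [Set.toFinset_card, ← Nat.card_eq_fintype_card, h1, hcardNT])
    intro a
    have h4 : a ∈ (MulAction.orbit ↥(normalizer (P : Set G)) f').toFinset := by
      rw [h3]
      exact Finset.mem_univ a
    obtain ⟨x, hx⟩ := Set.mem_toFinset.1 h4
    exact ⟨x, hx⟩
  have hθ : ∀ g : ↥P →* ℂˣ, g ≠ 1 → theta P g = theta P f := by
    intro g hg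
    obtain ⟨x, hx⟩ := horb ⟨g, hg⟩
    have h1 : x • f = g := congrArg Subtype.val hx
    rw [← h1]
    exact theta_smul H hN x hf
  have hmeq : ∀ (g : ↥P →* ℂˣ) (i : IrrCharacter G), g ≠ 1 → m g i = m f i := by
    intro g i hg
    have h1 := hm g i
    rw [hθ g hg, hm f i] at h1
    exact_mod_cast h1.symm
  -- the norm
  have hnorm : ∑ i, m f i ^ 2 = 5 := by
    have h1 := inner_theta H hN hf hf
    rw [parseval (theta_isClass _), if_pos ⟨1, one_smul _ _⟩] at h1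
    have h3 : ∀ i : IrrCharacter G, conj (classInner (theta P f) (i : G → ℂ)) * classInner (theta P f) (i : G → ℂ) =
        ((m f i ^ 2 : ℤ) : ℂ) := by
      intro i
      rw [hm]
      simp only [map_intCast]
      push_cast
      ring
    simp_rw [h3] at h1
    rw [← Int.cast_sum] at h1
    have h4 : ((∑ i, m f i ^ 2 : ℤ) : ℂ) = ((5 : ℤ) : ℂ) := by
      rw [h1]
      norm_num
    exact_mod_cast h4
  -- the trivial character
  have hone : m f (oneIrr G) = -1 := by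
    have h1 := hm f (oneIrr G)
    rw [classInner_theta f (isClassFunction_of_isCharacter (IsIrrCharacter.isCharacter (oneIrr G).2))] at h1
    have h2 : (fun w : ↥P => ((oneIrr G : IrrCharacter G) : G → ℂ) (w : G)) = chi (1 : ↥P →* ℂˣ) := by
      funext w
      simp [oneIrr, chi]
    rw [h2, classInner_chi, classInner_chi, if_neg hf, if_pos rfl] at h1
    have h3 : ((m f (oneIrr G) : ℤ) : ℂ) = ((-1 : ℤ) : ℂ) := by
      rw [← h1]; simp
    exact_mod_cast h3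
  -- the value at `1`
  have hzero : ∑ i, (d i : ℤ) * m f i = 0 := by
    have h1 := eval_eq_sum (theta_isClass (P := P) f) 1
    rw [theta_one H f] at h1
    have h2 : ∀ i : IrrCharacter G, classInner (theta P f) (i : G → ℂ) * (i : G → ℂ) 1 = (((d i : ℤ) * m f i : ℤ) : ℂ) := by
      intro i
      rw [hm, hd]
      push_cast
      ring
    simp_rw [h2] at h1
    rw [← Int.cast_sum] at h1
    exact_mod_cast h1.symm
  -- the degree formula
  have hdegf : ∀ i : IrrCharacter G, ∃ n : ℤ, (d i : ℤ) = 5 * n + 4 * m f i := by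
    intro i
    have hrestr : IsCharacter ↥P (fun v : ↥P => (i : G → ℂ) v) :=
      isCharacter_restrict P (IsIrrCharacter.isCharacter i.2)
    have hn : ∀ g : ↥P →* ℂˣ, ∃ n : ℕ, classInner (chi g) (fun v : ↥P => (i : G → ℂ) v) = n := by
      intro g
      obtain ⟨n, hn⟩ := classInner_char_irr hrestr (isIrr_chi g)
      refine ⟨n, ?_⟩
      rw [← classInner_conj_symm, hn]
      simp
    choose n hn using hn
    have hmn : ∀ g : ↥P →* ℂˣ, m g i = (n g : ℤ) - n 1 := by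
      intro g
      have h1 := hm g i
      rw [classInner_theta g (isClassFunction_of_isCharacter (IsIrrCharacter.isCharacter i.2)), hn, hn] at h1
      have h2 : ((m g i : ℤ) : ℂ) = (((n g : ℤ) - n 1 : ℤ) : ℂ) := by
        rw [← h1]; simp
      exact_mod_cast h2
    have htot : ∑ g : ↥P →* ℂˣ, (n g : ℤ) = d i := by
      have h1 := sum_classInner_chi H (fun v : ↥P => (i : G → ℂ) v)
      simp_rw [hn] at h1
      have h2 : (i : G → ℂ) ((1 : ↥P) : G) = d i := by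
        rw [Subgroup.coe_one, hd]
      rw [h2] at h1
      simp only [map_natCast] at h1
      have h3 : ((∑ g : ↥P →* ℂˣ, (n g : ℤ) : ℤ) : ℂ) = ((d i : ℤ) : ℂ) := by
        push_cast
        exact h1
      exact_mod_cast h3
    have hsplit : ∑ g : ↥P →* ℂˣ, (n g : ℤ) = ∑ a : NT P, (n a.1 : ℤ) + n 1 := by
      rw [← Fintype.sum_subtype_add_sum_subtype (fun g : ↥P →* ℂˣ => g ≠ 1)]
      congr 1
      have : Unique {g : ↥P →* ℂˣ // ¬ g ≠ 1} :=
        { default := ⟨1, by simp⟩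
          uniq := fun a => Subtype.ext (by simpa using a.2) }
      rw [Fintype.sum_unique]
      have h5 : (((default : {g : ↥P →* ℂˣ // ¬ g ≠ 1}) : {g : ↥P →* ℂˣ // ¬ g ≠ 1}) : ↥P →* ℂˣ) = 1 := by
        simpa using (default : {g : ↥P →* ℂˣ // ¬ g ≠ 1}).2
      rw [h5]
    have h4 : ∀ a : NT P, (n a.1 : ℤ) = m f i + n 1 := by
      intro a
      have h5 := hmeq a.1 i a.2
      rw [hmn a.1] at h5
      omega
    simp_rw [h4] at hsplit
    rw [Finset.sum_const, Finset.card_univ, hcardNT] at hsplit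
    refine ⟨n 1, ?_⟩
    rw [← htot, hsplit]
    simp only [nsmul_eq_mul]
    push_cast
    ring
  refine ⟨f, m f, d, hf, fun i => ⟨hdpos i, hd i⟩, hm f, hnorm, hone, hzero, ?_⟩
  intro i
  obtain ⟨n, hn⟩ := hdegf i
  rw [hn]
  have : (5 : ℤ) * n + 4 * m f i - (- m f i) = 5 * (n + m f i) := by ring
  exact (Int.modEq_iff_dvd.2 ⟨-(n + m f i), by linarith⟩)

/-- Integer vectors of norm four. -/
theorem norm_four_cases {ι : Type*} [Fintype ι] [DecidableEq ι] (a : ι → ℤ) (i₀ : ι) (h0 : a i₀ = -1)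
    (h : ∑ i, a i ^ 2 = 5) :
    (∃ i₁, i₁ ≠ i₀ ∧ a i₁ ^ 2 = 4 ∧ ∀ k, k ≠ i₀ → k ≠ i₁ → a k = 0) ∨
    (∃ i₁ i₂ i₃ i₄, i₁ ≠ i₀ ∧ i₂ ≠ i₀ ∧ i₃ ≠ i₀ ∧ i₄ ≠ i₀ ∧ i₁ ≠ i₂ ∧ i₁ ≠ i₃ ∧ i₁ ≠ i₄ ∧ i₂ ≠ i₃ ∧ i₂ ≠ i₄ ∧ i₃ ≠ i₄ ∧
      a i₁ ^ 2 = 1 ∧ a i₂ ^ 2 = 1 ∧ a i₃ ^ 2 = 1 ∧ a i₄ ^ 2 = 1 ∧
      ∀ k, k ≠ i₀ → k ≠ i₁ → k ≠ i₂ → k ≠ i₃ → k ≠ i₄ → a k = 0) := by
  let S : Finset ι := (Finset.univ.erase i₀).filter fun k => a k ≠ 0
  have hS : ∑ k ∈ S, a k ^ 2 = 4 := by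
    have h2 : ∑ i, a i ^ 2 = a i₀ ^ 2 + ∑ i ∈ Finset.univ.erase i₀, a i ^ 2 :=
      (Finset.add_sum_erase _ _ (Finset.mem_univ i₀)).symm
    have h3 : ∑ k ∈ S, a k ^ 2 = ∑ i ∈ Finset.univ.erase i₀, a i ^ 2 := by
      apply Finset.sum_subset (Finset.filter_subset _ _)
      intro k hk hk2
      have : a k = 0 := by
        by_contra hne
        exact hk2 (Finset.mem_filter.2 ⟨hk, hne⟩)
      rw [this]
      norm_num
    rw [h3]
    rw [h2, h0] at h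
    norm_num at h
    omega
  have hmem : ∀ k, k ∉ S → k ≠ i₀ → a k = 0 := by
    intro k hk hk0
    by_contra hne
    exact hk (Finset.mem_filter.2 ⟨Finset.mem_erase.2 ⟨hk0, Finset.mem_univ k⟩, hne⟩)
  have hpos : ∀ k ∈ S, 1 ≤ a k ^ 2 := by
    intro k hk
    have : a k ≠ 0 := (Finset.mem_filter.1 hk).2
    have h1 : 0 < a k ^ 2 := by positivity
    omega
  by_cases hbig : ∃ k ∈ S, a k ^ 2 ≠ 1
  · left
    obtain ⟨k, hk, hk1⟩ := hbig
    have hk4 : 4 ≤ a k ^ 2 := by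
      have h1 := hpos k hk
      by_contra hlt
      have h2 : a k ^ 2 < 4 := by omega
      have h3 : |a k| < 2 := by
        apply abs_lt_of_sq_lt_sq
        · norm_num; exact h2
        · norm_num
      have h4 : a k = 0 ∨ a k = 1 ∨ a k = -1 := by
        have := abs_lt.1 h3
        omega
      rcases h4 with h4 | h4 | h4 <;> rw [h4] at hk1 h1 <;> simp at hk1 h1
    have hrest : ∑ j ∈ S.erase k, a j ^ 2 = 4 - a k ^ 2 := by
      have := Finset.add_sum_erase S (fun j => a j ^ 2) hk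
      omega
    have hnn : 0 ≤ ∑ j ∈ S.erase k, a j ^ 2 := Finset.sum_nonneg fun j _ => sq_nonneg _
    have h4 : a k ^ 2 = 4 := by omega
    refine ⟨k, Finset.ne_of_mem_erase (Finset.mem_filter.1 hk).1, h4, ?_⟩
    intro j hj0 hjk
    by_contra hne
    have hjS : j ∈ S.erase k := Finset.mem_erase.2 ⟨hjk, Finset.mem_filter.2 ⟨Finset.mem_erase.2 ⟨hj0, Finset.mem_univ j⟩, hne⟩⟩
    have h5 : a j ^ 2 ≤ ∑ j ∈ S.erase k, a j ^ 2 :=
      Finset.single_le_sum (f := fun j => a j ^ 2) (fun j _ => sq_nonneg _) hjS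
    have h6 := hpos j (Finset.mem_of_mem_erase hjS)
    omega
  · right
    push Not at hbig
    have hcard : S.card = 4 := by
      have h1 : ∑ k ∈ S, a k ^ 2 = ∑ k ∈ S, (1 : ℤ) := Finset.sum_congr rfl hbig
      rw [hS, Finset.sum_const, nsmul_eq_mul, mul_one] at h1
      omega
    obtain ⟨i₄, T, hT, hST, hTc⟩ := Finset.card_eq_succ.1 hcard
    obtain ⟨i₁, i₂, i₃, h12, h13, h23, rfl⟩ := Finset.card_eq_three.1 hTc
    have hm1 : i₁ ∈ S := by rw [← hST]; simp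
    have hm2 : i₂ ∈ S := by rw [← hST]; simp
    have hm3 : i₃ ∈ S := by rw [← hST]; simp
    have hm4 : i₄ ∈ S := by rw [← hST]; simp
    have hne : ∀ k ∈ S, k ≠ i₀ := fun k hk => Finset.ne_of_mem_erase (Finset.mem_filter.1 hk).1
    simp only [Finset.mem_insert, Finset.mem_singleton, not_or] at hT
    refine ⟨i₁, i₂, i₃, i₄, hne _ hm1, hne _ hm2, hne _ hm3, hne _ hm4, h12, h13, Ne.symm hT.1, h23, Ne.symm hT.2.1, Ne.symm hT.2.2,
      hbig _ hm1, hbig _ hm2, hbig _ hm3, hbig _ hm4, ?_⟩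
    intro k h0' h1' h2' h3' h4'
    apply hmem k _ h0'
    rw [← hST]
    simp [h1', h2', h3', h4']

/-- Integer values allowed by integrality. -/
def valList (d idx : ℕ) : List ℤ :=
  ((List.range (2 * d - 1)).map (fun k : ℕ => (k : ℤ) - ((d : ℤ) - 1))).filter (fun y => (idx * y.natAbs) % d == 0)

theorem mem_valList {d idx : ℕ} {y : ℤ} (hd : 0 < d) (hy : |y| < d) (hdv : d ∣ idx * y.natAbs) : y ∈ valList d idx := by
  unfold valList
  rw [List.mem_filter]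
  constructor
  · rw [List.mem_map]
    refine ⟨(y + ((d : ℤ) - 1)).toNat, ?_, ?_⟩
    · rw [List.mem_range]
      have := abs_lt.1 hy
      omega
    · have := abs_lt.1 hy
      rw [Int.toNat_of_nonneg (by omega)]
      ring
  · simp only [beq_iff_eq]
    exact Nat.mod_eq_zero_of_dvd hdv

/-- The sign attached to a degree. -/
def eps (d : ℕ) : ℤ := if d % 5 = 1 then -1 else 1

/-- The numerical test. -/
def chk : Bool :=
  [4, 6, 9, 16, 24, 36, 54].all fun d₁ => [4, 6, 9, 16, 24, 36, 54].all fun d₂ =>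
  [4, 6, 9, 16, 24, 36, 54].all fun d₃ => [4, 6, 9, 16, 24, 36, 54].all fun d₄ =>
    if -1 + eps d₁ * d₁ + eps d₂ * d₂ + eps d₃ * d₃ + eps d₄ * d₄ ≠ 0 then true else
    [(32, 135), (96, 45), (288, 15), (864, 5)].all fun (q : ℕ × ℕ) =>
      (valList d₁ q.2).all fun y₁ => (valList d₂ q.2).all fun y₂ => (valList d₃ q.2).all fun y₃ =>
        (valList d₄ q.2).all fun y₄ =>
          if -1 + eps d₁ * y₁ + eps d₂ * y₂ + eps d₃ * y₃ + eps d₄ * y₄ ≠ 0 then true else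
          if 1 + y₁ ^ 2 + y₂ ^ 2 + y₃ ^ 2 + y₄ ^ 2 > (q.1 : ℤ) then true else
          [0, 5].all fun (n : ℤ) =>
            (q.1 : ℤ) ^ 2 * n * (d₁ * d₂ * d₃ * d₄) ≠ 4320 * (d₁ * d₂ * d₃ * d₄ - eps d₁ * y₁ ^ 2 * d₂ * d₃ * d₄ -
              eps d₂ * y₂ ^ 2 * d₁ * d₃ * d₄ - eps d₃ * y₃ ^ 2 * d₁ * d₂ * d₄ - eps d₄ * y₄ ^ 2 * d₁ * d₂ * d₃)

theorem chk_eq : chk = true := by decide +kernel

theorem chk_false {d₁ d₂ d₃ d₄ C idx : ℕ} {y₁ y₂ y₃ y₄ n : ℤ}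
    (hd₁ : d₁ ∈ [4, 6, 9, 16, 24, 36, 54]) (hd₂ : d₂ ∈ [4, 6, 9, 16, 24, 36, 54])
    (hd₃ : d₃ ∈ [4, 6, 9, 16, 24, 36, 54]) (hd₄ : d₄ ∈ [4, 6, 9, 16, 24, 36, 54])
    (heq : -1 + eps d₁ * d₁ + eps d₂ * d₂ + eps d₃ * d₃ + eps d₄ * d₄ = 0)
    (hq : (C, idx) ∈ [(32, 135), (96, 45), (288, 15), (864, 5)])
    (hy₁ : y₁ ∈ valList d₁ idx) (hy₂ : y₂ ∈ valList d₂ idx) (hy₃ : y₃ ∈ valList d₃ idx) (hy₄ : y₄ ∈ valList d₄ idx)
    (hey : -1 + eps d₁ * y₁ + eps d₂ * y₂ + eps d₃ * y₃ + eps d₄ * y₄ = 0)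
    (hcol : 1 + y₁ ^ 2 + y₂ ^ 2 + y₃ ^ 2 + y₄ ^ 2 ≤ (C : ℤ))
    (hn : n ∈ [(0 : ℤ), 5])
    (hf : (C : ℤ) ^ 2 * n * (d₁ * d₂ * d₃ * d₄) = 4320 * (d₁ * d₂ * d₃ * d₄ - eps d₁ * y₁ ^ 2 * d₂ * d₃ * d₄ -
              eps d₂ * y₂ ^ 2 * d₁ * d₃ * d₄ - eps d₃ * y₃ ^ 2 * d₁ * d₂ * d₄ - eps d₄ * y₄ ^ 2 * d₁ * d₂ * d₃)) : False := by
  have h := chk_eq
  unfold chk at h
  rw [List.all_eq_true] at h
  have h₁ := h d₁ hd₁
  rw [List.all_eq_true] at h₁
  have h₂ := h₁ d₂ hd₂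
  rw [List.all_eq_true] at h₂
  have h₃ := h₂ d₃ hd₃
  rw [List.all_eq_true] at h₃
  have h₄ := h₃ d₄ hd₄
  rw [if_neg (not_not.2 heq), List.all_eq_true] at h₄
  have h₅ := h₄ (C, idx) hq
  simp only [List.all_eq_true] at h₅
  have h₆ := h₅ y₁ hy₁ y₂ hy₂ y₃ hy₃ y₄ hy₄
  rw [if_neg (not_not.2 hey), if_neg (not_lt.2 hcol), List.all_eq_true] at h₆
  have h₇ := h₆ n hn
  simp only [ne_eq, decide_eq_true_eq] at h₇
  exact h₇ hf

end Cfsg.Agent.Lib.O4320Char79
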