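import Mathlib
import Cfsg.Agent.Lib.O4320Abs79

/-!
# Groups of order 4320: an involution centralizer mapping onto `A₅`
-/

set_option autoImplicit false
set_option linter.style.haveILetI false

namespace Cfsg.Agent.Lib.O4320Hom79

open Subgroup Cfsg.Agent.Lib.O4320Abs79

abbrev A5 := alternatingGroup (Fin 5)

def v1 : A5 := ⟨Equiv.swap 0 1 * Equiv.swap 2 3, Equiv.Perm.mem_alternatingGroup.2 (by decide +kernel)⟩
def v2 : A5 := ⟨Equiv.swap 0 2 * Equiv.swap 1 3, Equiv.Perm.mem_alternatingGroup.2 (by decide +kernel)⟩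
def v3 : A5 := ⟨Equiv.swap 0 3 * Equiv.swap 1 2, Equiv.Perm.mem_alternatingGroup.2 (by decide +kernel)⟩
def d0 : A5 := ⟨Equiv.swap 0 1 * Equiv.swap 1 2, Equiv.Perm.mem_alternatingGroup.2 (by decide +kernel)⟩
def VF : Finset A5 := {1, v1, v2, v3}
theorem f1 : d0 * d0 * d0 = 1 := by decide +kernel
theorem f2 : d0 ≠ 1 := by decide +kernel
theorem f3 : ∀ x ∈ VF, ∀ y ∈ VF, x * y ∈ VF := by decide +kernel
theorem f4 : ∀ x ∈ VF, x⁻¹ ∈ VF := by decide +kernel
theorem f5 : ∀ v ∈ VF, d0 * v * d0⁻¹ ∈ VF := by decide +kernel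
theorem f6 : ∀ v ∈ VF, v ≠ 1 → ∀ w ∈ VF, w = 1 ∨ w = v ∨ w = d0 * v * d0⁻¹ ∨ w = d0⁻¹ * v * d0 := by decide +kernel
theorem f7 : ∀ v ∈ VF, v ≠ 1 → v ≠ d0 * v * d0⁻¹ ∧ v ≠ d0⁻¹ * v * d0 ∧ d0 * v * d0⁻¹ ≠ d0⁻¹ * v * d0 := by decide +kernel
theorem f8 : ∀ v ∈ VF, v ≠ 1 → v * (d0 * v * d0⁻¹) * (d0⁻¹ * v * d0) = 1 := by decide +kernel
theorem f9 : ∀ v ∈ VF, v ≠ 1 → ∀ k : A5, k * v = v * k → k ∈ VF := by decide +kernel
theorem f10 : VF.card = 4 := by decide +kernel
theorem f11 : (1 : A5) ∈ VF := by decide +kernel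
theorem f12 : Nat.card A5 = 60 := by
  rw [Nat.card_eq_fintype_card]
  decide +kernel

/-- The Klein subgroup. -/
def VS : Subgroup A5 where
  carrier := ↑VF
  mul_mem' := fun {a b} ha hb => f3 a ha b hb
  one_mem' := f11
  inv_mem' := fun {a} ha => f4 a ha

theorem mem_VS {x : A5} : x ∈ VS ↔ x ∈ VF := Iff.rfl

theorem card_VS : Nat.card VS = 4 := by
  have h1 : Nat.card VS = Set.ncard ((VS : Set A5)) := (Nat.card_coe_set_eq _)
  have h2 : (VS : Set A5) = ↑VF := rfl
  rw [h1, h2, Set.ncard_coe_finset, f10]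

variable {G : Type*} [Group G] [Finite G]

theorem contra_of_hom (hperf : commutator G = ⊤) (hG : Nat.card G = 4320) (t : G)
    (ht2 : t * t = 1) (ht1 : t ≠ 1) (hX : Nat.card (centralizer ({t} : Set G)) = 120)
    (π : centralizer ({t} : Set G) →* A5) (hsurj : Function.Surjective π)
    (hker : ∀ x : centralizer ({t} : Set G), π x = 1 ↔ (x : G) = 1 ∨ (x : G) = t) : False := by
  classical
  have htX : t ∈ centralizer ({t} : Set G) := Subgroup.mem_centralizer_singleton_iff.2 rfl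
  have hπt : π ⟨t, htX⟩ = 1 := (hker _).2 (Or.inr rfl)
  have hkerEq : ∀ u v : centralizer ({t} : Set G), π u = π v → (u : G) = v ∨ (u : G) = t * v := by
    intro u v huv
    have h1 : π (u * v⁻¹) = 1 := by rw [map_mul, map_inv, huv, mul_inv_cancel]
    rcases (hker _).1 h1 with h | h
    · left
      simp only [coe_mul, InvMemClass.coe_inv] at h
      exact mul_inv_eq_one.1 h
    · right
      simp only [coe_mul, InvMemClass.coe_inv] at h
      exact mul_inv_eq_iff_eq_mul.1 h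
  obtain ⟨T₀, hT₀def⟩ : ∃ T₀ : Subgroup G, T₀ = (VS.comap π).map (centralizer ({t} : Set G)).subtype := ⟨_, rfl⟩
  have hmemT : ∀ y : centralizer ({t} : Set G), (y : G) ∈ T₀ ↔ π y ∈ VF := by
    intro y
    rw [hT₀def]
    constructor
    · rintro ⟨y', hy', he⟩
      have : y' = y := Subtype.ext he
      rw [← this]
      exact hy'
    · intro h
      exact ⟨y, h, rfl⟩
  have hmemT' : ∀ y ∈ T₀, ∃ y' : centralizer ({t} : Set G), (y' : G) = y ∧ π y' ∈ VF := by
    intro y hy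
    rw [hT₀def] at hy
    obtain ⟨y', hy', he⟩ := hy
    exact ⟨y', he, hy'⟩
  have hT₀c : Nat.card T₀ = 8 := by
    have h1 : Nat.card T₀ = Nat.card (VS.comap π) := by
      rw [hT₀def]
      exact Nat.card_congr (Subgroup.equivMapOfInjective _ _ (Subtype.val_injective)).symm.toEquiv
    have h2 := Subgroup.index_comap_of_surjective VS hsurj
    have h3 := Subgroup.card_mul_index (VS.comap π)
    have h4 := Subgroup.card_mul_index VS
    rw [card_VS, f12] at h4
    rw [h2, hX] at h3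
    have h5 : VS.index = 15 := by omega
    rw [h5] at h3
    rw [h1]
    omega
  obtain ⟨L, hL⟩ := hsurj d0
  have hL3 : ((L * L * L : centralizer ({t} : Set G)) : G) = 1 ∨ ((L * L * L : centralizer ({t} : Set G)) : G) = t :=
    (hker _).1 (by rw [map_mul, map_mul, hL]; exact f1)
  obtain ⟨D', hD'⟩ : ∃ D' : centralizer ({t} : Set G), D' = L * L * L * L := ⟨_, rfl⟩
  have hπD : π D' = d0 := by
    rw [hD', map_mul, map_mul, map_mul, hL, f1, one_mul]
  obtain ⟨D, hDdef⟩ : ∃ D : G, D = (D' : G) := ⟨_, rfl⟩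
  have hD3 : D * D * D = 1 := by
    have hc : ((L * L * L : centralizer ({t} : Set G)) : G) * ((L * L * L : centralizer ({t} : Set G)) : G) = 1 := by
      rcases hL3 with h | h <;> rw [h]
      · simp
      · exact ht2
    rw [hDdef, hD']
    simp only [coe_mul] at hc ⊢
    obtain ⟨l, hl⟩ : ∃ l : G, l = (L : G) := ⟨_, rfl⟩
    rw [← hl] at hc ⊢
    calc l * l * l * l * (l * l * l * l) * (l * l * l * l) = (l * l * l * (l * l * l)) * (l * l * l * (l * l * l)) := by group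
      _ = 1 := by rw [hc, one_mul]
  have hDinv : D * D = D⁻¹ := eq_inv_of_mul_eq_one_left hD3
  have hDt : D * t = t * D := by
    rw [hDdef]
    exact Subgroup.mem_centralizer_singleton_iff.1 D'.2
  have hD1 : D ≠ 1 := by
    intro h
    apply f2
    rw [← hπD]
    have : D' = 1 := Subtype.ext (by rw [← hDdef, h]; rfl)
    rw [this, map_one]
  have hcoeD : ∀ z' : centralizer ({t} : Set G), ((D' * z' * D'⁻¹ : centralizer ({t} : Set G)) : G) = D * z' * D⁻¹ := by
    intro z'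
    simp [hDdef]
  have hcoeD' : ∀ z' : centralizer ({t} : Set G), ((D'⁻¹ * z' * D' : centralizer ({t} : Set G)) : G) = D⁻¹ * z' * D := by
    intro z'
    simp [hDdef]
  have hπD1 : ∀ z' : centralizer ({t} : Set G), π (D' * z' * D'⁻¹) = d0 * π z' * d0⁻¹ := by
    intro z'
    rw [map_mul, map_mul, map_inv, hπD]
  have hπD2 : ∀ z' : centralizer ({t} : Set G), π (D'⁻¹ * z' * D') = d0⁻¹ * π z' * d0 := by
    intro z'
    rw [map_mul, map_mul, map_inv, hπD]
  have hne1 : ∀ z' : centralizer ({t} : Set G), (z' : G) ≠ 1 → (z' : G) ≠ t → π z' ≠ 1 := by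
    intro z' h1 h2 h3
    rcases (hker z').1 h3 with h | h
    · exact h1 h
    · exact h2 h
  refine contra_of_structure hperf hG t D T₀ ht2 ht1 hX hT₀c ?_ ?_ hDt hDinv ?_ hD1 ?_ ?_ ?_ ?_
  · have := (hmemT ⟨t, htX⟩).2 (by rw [hπt]; exact f11)
    exact this
  · intro g hg
    obtain ⟨g', rfl, -⟩ := hmemT' g hg
    exact Subgroup.mem_centralizer_singleton_iff.1 g'.2
  · intro g hg
    obtain ⟨g', rfl, hg'⟩ := hmemT' g hg
    rw [← hcoeD, hmemT, hπD1]
    exact f5 _ hg'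
  · intro z hz hz1 hzt y hy
    obtain ⟨z', rfl, hz'⟩ := hmemT' z hz
    obtain ⟨y', rfl, hy'⟩ := hmemT' y hy
    rcases f6 _ hz' (hne1 z' hz1 hzt) _ hy' with h | h | h | h
    · rcases (hker y').1 h with h' | h'
      · exact Or.inl h'
      · exact Or.inr (Or.inl h')
    · rcases hkerEq _ _ h with h' | h'
      · exact Or.inr (Or.inr (Or.inl h'))
      · exact Or.inr (Or.inr (Or.inr (Or.inr (Or.inr (Or.inl h')))))
    · rw [← hπD1] at h
      rcases hkerEq _ _ h with h' | h' <;> rw [hcoeD] at h'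
      · exact Or.inr (Or.inr (Or.inr (Or.inl h')))
      · exact Or.inr (Or.inr (Or.inr (Or.inr (Or.inr (Or.inr (Or.inl h'))))))
    · rw [← hπD2] at h
      rcases hkerEq _ _ h with h' | h' <;> rw [hcoeD'] at h'
      · exact Or.inr (Or.inr (Or.inr (Or.inr (Or.inl h'))))
      · exact Or.inr (Or.inr (Or.inr (Or.inr (Or.inr (Or.inr (Or.inr h'))))))
  · intro z hz hz1 hzt
    obtain ⟨z', rfl, hz'⟩ := hmemT' z hz
    obtain ⟨h1, h2, h3⟩ := f7 _ hz' (hne1 z' hz1 hzt)
    refine ⟨?_, ?_, ?_⟩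
    · intro h
      rw [← hcoeD] at h
      apply h1
      rw [← hπD1]
      exact congrArg π (Subtype.ext h)
    · intro h
      rw [← hcoeD'] at h
      apply h2
      rw [← hπD2]
      exact congrArg π (Subtype.ext h)
    · intro h
      rw [← hcoeD, ← hcoeD'] at h
      apply h3
      rw [← hπD1, ← hπD2]
      exact congrArg π (Subtype.ext h)
  · intro z hz hz1 hzt
    obtain ⟨z', rfl, hz'⟩ := hmemT' z hz
    have h8 := f8 _ hz' (hne1 z' hz1 hzt)
    rw [← hπD1, ← hπD2, ← map_mul, ← map_mul] at h8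
    have e : (z' : G) * (D * z' * D⁻¹) * (D⁻¹ * z' * D) =
        ((z' * (D' * z' * D'⁻¹) * (D'⁻¹ * z' * D') : centralizer ({t} : Set G)) : G) := by
      simp [hDdef]
    rw [e]
    exact (hker _).1 h8
  · intro z hz hz1 hzt k hkt hkz
    obtain ⟨z', rfl, hz'⟩ := hmemT' z hz
    have hkX : k ∈ centralizer ({t} : Set G) := Subgroup.mem_centralizer_singleton_iff.2 hkt
    have h9 := f9 _ hz' (hne1 z' hz1 hzt) (π ⟨k, hkX⟩) (by
      rw [← map_mul, ← map_mul]
      congr 1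
      exact Subtype.ext hkz)
    exact (hmemT ⟨k, hkX⟩).2 h9

end Cfsg.Agent.Lib.O4320Hom79
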