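import Mathlib
import Cfsg.Agent.Lib.SmallGroups2
import Cfsg.Agent.S0987

/-!
# A criterion for simplicity in order 60
-/

set_option autoImplicit false
set_option linter.style.haveILetI false

namespace Cfsg.Agent.Lib.O4320Sixty79

open Subgroup Cfsg.Agent.Lib.SmallGroups2

variable {H : Type*} [Group H] [Finite H]

/-- A normal subgroup of order prime to `5` has order `1` mod `5` when `S` is self-centralizing. -/
theorem normal_card_mod (S : Sylow 5 H) (hS : Nat.card (S : Subgroup H) = 5) (hc : centralizer ((S : Subgroup H) : Set H) ≤ S)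
    (M : Subgroup H) [hM : M.Normal] (h5 : ¬ 5 ∣ Nat.card M) : Nat.card M % 5 = 1 := by
  classical
  haveI : Fact (Nat.Prime 5) := ⟨by norm_num⟩
  letI : MulAction ↥(S : Subgroup H) ↥M := MulAction.compHom _ ((MulAut.conjNormal (H := M)).comp (S : Subgroup H).subtype)
  have hsmul : ∀ (s : ↥(S : Subgroup H)) (m : ↥M), ((s • m : ↥M) : H) = (s : H) * m * (s : H)⁻¹ := fun s m => rfl
  have hpg : IsPGroup 5 ↥(S : Subgroup H) := S.isPGroup'
  have h1 := hpg.card_modEq_card_fixedPoints (α := ↥M)
  have h2 : Nat.card (MulAction.fixedPoints ↥(S : Subgroup H) ↥M) = 1 := by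
    rw [Nat.card_eq_one_iff_unique]
    have hfix : ∀ m : MulAction.fixedPoints ↥(S : Subgroup H) ↥M, m = ⟨1, by
        intro s
        apply Subtype.ext
        rw [hsmul]
        simp⟩ := by
      intro m
      apply Subtype.ext
      apply Subtype.ext
      have hm1 : ((m : ↥M) : H) ∈ centralizer ((S : Subgroup H) : Set H) := by
        rw [mem_centralizer_iff]
        intro s hs
        have h3 : ((⟨s, hs⟩ : ↥(S : Subgroup H)) • (m : ↥M)) = m := m.2 _
        have h4 := congrArg (Subtype.val) h3
        rw [hsmul] at h4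
        simp only at h4
        rw [mul_inv_eq_iff_eq_mul] at h4
        exact h4
      have hm2 : ((m : ↥M) : H) ∈ (S : Subgroup H) := hc hm1
      by_contra hne
      have hne' : ((m : ↥M) : H) ≠ 1 := hne
      have ho := orderOf_eq_of_mem_of_ne_one (by norm_num : Nat.Prime 5) hS hm2 hne'
      apply h5
      rw [← ho]
      exact Subgroup.orderOf_dvd_natCard M (m : ↥M).2
    exact ⟨⟨fun a b => (hfix a).trans (hfix b).symm⟩, ⟨⟨1, by
        intro s
        apply Subtype.ext
        rw [hsmul]
        simp⟩⟩⟩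
  rw [h2] at h1
  exact h1

/-- **A group of order 60 with a self-centralizing non-normal Sylow 5-subgroup is simple.** -/
theorem isSimple_of_card_sixty (h60 : Nat.card H = 60) (S : Sylow 5 H) (hc : centralizer ((S : Subgroup H) : Set H) ≤ S)
    (hn : ¬ (S : Subgroup H).Normal) : IsSimpleGroup H := by
  classical
  haveI : Fact (Nat.Prime 5) := ⟨by norm_num⟩
  haveI : Fact (Nat.Prime 3) := ⟨by norm_num⟩
  have hS : Nat.card (S : Subgroup H) = 5 := by
    rw [sylow_card_of_card_eq (p := 5) (a := 1) (m := 12) (by rw [h60]; norm_num) (by norm_num) S, pow_one]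
  haveI : Nontrivial H := by
    apply Finite.one_lt_card_iff_nontrivial.1
    omega
  refine ⟨fun M hM => ?_⟩
  by_contra hcon
  push Not at hcon
  obtain ⟨hbot, htop⟩ := hcon
  have hk : Nat.card M ∣ 60 := by
    rw [← h60]
    exact Subgroup.card_subgroup_dvd_card M
  have hk1 : Nat.card M ≠ 1 := by
    intro h1
    exact hbot (Subgroup.card_eq_one.1 h1)
  have hk60 : Nat.card M ≠ 60 := by
    intro h1
    apply htop
    apply Subgroup.eq_top_of_card_eq
    rw [h1, h60]
  -- a normal Sylow subgroup of `M`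
  have hchar : ∀ (q : ℕ) [Fact q.Prime] (R : Sylow q ↥M), (R : Subgroup ↥M).Normal → ((R : Subgroup ↥M).map M.subtype).Normal := by
    intro q _ R hR
    haveI : (R : Subgroup ↥M).Characteristic := Sylow.characteristic_of_normal R hR
    exact ConjAct.normal_of_characteristic_of_normal
  by_cases h5 : 5 ∣ Nat.card M
  · -- the Sylow 5-subgroup of `M` is normal
    have hnorm : ∀ R : Sylow 5 ↥M, (R : Subgroup ↥M).Normal := by
      intro R
      by_cases h30 : Nat.card M = 30
      · exact Cfsg.Agent.S0987.result 2 3 5 (by norm_num) (by norm_num) (by norm_num) (by norm_num) (by rw [h30]) R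
      · have hm : ∃ m, Nat.card M = 5 ^ 1 * m ∧ ¬ 5 ∣ m ∧ m ≠ 6 ∧ m ≠ 12 := by
          obtain ⟨m, hm⟩ := h5
          refine ⟨m, by rw [hm, pow_one], ?_, ?_, ?_⟩
          · rintro ⟨c, rfl⟩
            rw [hm] at hk
            have : 25 ∣ 60 := by
              refine Dvd.dvd.trans ⟨c, ?_⟩ hk
              ring
            omega
          · rintro rfl
            omega
          · rintro rfl
            omega
        obtain ⟨m, hm1, hm2, hm6, hm12⟩ := hm
        have h1 := card_sylow_dvd hm1 hm2
        have h2 : Nat.card (Sylow 5 ↥M) % 5 = 1 := by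
          have := card_sylow_mod (G := ↥M) (p := 5)
          simpa using this
        have hmd : m ∣ 12 := by
          rw [hm1] at hk
          have : 5 * m ∣ 5 * 12 := by simpa using hk
          exact Nat.dvd_of_mul_dvd_mul_left (by norm_num) this
        have hm' : m ∈ Nat.divisors 12 := Nat.mem_divisors.2 ⟨hmd, by norm_num⟩
        have hs : Nat.card (Sylow 5 ↥M) ∈ Nat.divisors m := Nat.mem_divisors.2 ⟨h1, by
          rintro rfl
          simp at hmd⟩
        have hdec : ∀ m ∈ Nat.divisors 12, m ≠ 6 → m ≠ 12 → ∀ s ∈ Nat.divisors m, s % 5 = 1 → s = 1 := by decide +kernel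
        have h3 := hdec m hm' hm6 hm12 _ hs h2
        haveI : Subsingleton (Sylow 5 ↥M) := (Nat.card_eq_one_iff_unique.1 h3).1
        exact Sylow.normal_of_subsingleton R
    obtain ⟨R⟩ : Nonempty (Sylow 5 ↥M) := inferInstance
    have hN := hchar 5 R (hnorm R)
    have hpg : IsPGroup 5 ((R : Subgroup ↥M).map M.subtype) := R.isPGroup'.map M.subtype
    obtain ⟨Q, hQ⟩ := hpg.exists_le_sylow
    have hcQ : Nat.card (Q : Subgroup H) = 5 := by
      rw [sylow_card_of_card_eq (p := 5) (a := 1) (m := 12) (by rw [h60]; norm_num) (by norm_num) Q, pow_one]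
    have hcR : Nat.card ((R : Subgroup ↥M).map M.subtype) = 5 := by
      rw [Nat.card_congr ((R : Subgroup ↥M).equivMapOfInjective _ M.subtype_injective).symm.toEquiv]
      have h6 : Nat.card (R : Subgroup ↥M) ∣ Nat.card M := Subgroup.card_subgroup_dvd_card _
      obtain ⟨m, hm⟩ := h5
      have hm2 : ¬ 5 ∣ m := by
        rintro ⟨c, rfl⟩
        rw [hm] at hk
        have : 25 ∣ 60 := by
          refine Dvd.dvd.trans ⟨c, ?_⟩ hk
          ring
        omega
      rw [sylow_card_of_card_eq (p := 5) (a := 1) (m := m) (by rw [hm, pow_one]) hm2 R, pow_one]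
    have hEq : (R : Subgroup ↥M).map M.subtype = Q := Subgroup.eq_of_le_of_card_ge hQ (by rw [hcR, hcQ])
    obtain ⟨g, hg⟩ := MulAction.exists_smul_eq H Q S
    apply hn
    have hS2 : (S : Subgroup H) = (Q : Subgroup H).map (MulAut.conj g).toMonoidHom := by
      rw [← hg]
      rfl
    rw [hS2, ← hEq]
    exact hN.map _ (MulAut.conj g).surjective
  · have hmod := normal_card_mod S hS hc M h5
    have hdec : ∀ k ∈ Nat.divisors 60, k % 5 = 1 → k ≠ 1 → k = 6 := by decide +kernel
    have hk6 := hdec _ (Nat.mem_divisors.2 ⟨hk, by norm_num⟩) hmod hk1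
    obtain ⟨R⟩ : Nonempty (Sylow 3 ↥M) := inferInstance
    have hm1 : Nat.card M = 3 ^ 1 * 2 := by rw [hk6]; norm_num
    have hcR : Nat.card (R : Subgroup ↥M) = 3 := by
      rw [sylow_card_of_card_eq (p := 3) (a := 1) (m := 2) hm1 (by norm_num) R, pow_one]
    have h1 := card_sylow_dvd hm1 (by norm_num : ¬ 3 ∣ 2)
    have h2 : Nat.card (Sylow 3 ↥M) % 3 = 1 := by
      have := card_sylow_mod (G := ↥M) (p := 3)
      simpa using this
    have h3 : Nat.card (Sylow 3 ↥M) = 1 := by
      have h4 : Nat.card (Sylow 3 ↥M) ≤ 2 := Nat.le_of_dvd (by norm_num) h1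
      interval_cases (Nat.card (Sylow 3 ↥M)) <;> omega
    haveI : Subsingleton (Sylow 3 ↥M) := (Nat.card_eq_one_iff_unique.1 h3).1
    have hN := hchar 3 R (Sylow.normal_of_subsingleton R)
    have hcA : Nat.card ((R : Subgroup ↥M).map M.subtype) = 3 := by
      rw [Nat.card_congr ((R : Subgroup ↥M).equivMapOfInjective _ M.subtype_injective).symm.toEquiv, hcR]
    have hmod2 := normal_card_mod S hS hc ((R : Subgroup ↥M).map M.subtype) (by rw [hcA]; norm_num)
    rw [hcA] at hmod2
    omega

end Cfsg.Agent.Lib.O4320Sixty79
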