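import Mathlib
import Cfsg.Agent.Lib.O4320Hom79
import Cfsg.Agent.Lib.O4320Base79
import Cfsg.Agent.Lib.O4320Sixty79
import Cfsg.Agent.Lib.CharInd
import Cfsg.Agent.S0494

/-!
# Groups of order 4320: `n₅ = 216` with `|C(P)| = 10`
-/

set_option autoImplicit false
set_option linter.style.haveILetI false

namespace Cfsg.Agent.Lib.O4320II79

open Subgroup Cfsg.Agent.Lib.SmallGroups2 Cfsg.Agent.Lib.TwoLocal Cfsg.Agent.Lib.TwoLocal2
  Cfsg.Agent.Lib.O4320Base79 Cfsg.Agent.Lib.O4320Hom79

variable {G : Type*} [Group G] [Finite G]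

theorem perfect_of_simple [IsSimpleGroup G] (hG : ¬ IsMulCommutative G) : commutator G = ⊤ := by
  rcases (inferInstance : (commutator G).Normal).eq_bot_or_eq_top with h | h
  · exfalso
    have h1 : Subgroup.center G = ⊤ := (commutator_eq_bot_iff_center_eq_top G).1 h
    apply hG
    refine ⟨⟨fun a b => ?_⟩⟩
    have h2 : a ∈ Subgroup.center G := by rw [h1]; trivial
    exact (Subgroup.mem_center_iff.1 h2 b).symm
  · exact h

/-- Elements of a subgroup of order five with trivial square are trivial. -/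
lemma eq_one_of_sq_of_card_five {P : Subgroup G} (hP : Nat.card P = 5) {y : G} (hy : y ∈ P) (h2 : y * y = 1) : y = 1 := by
  have h1 : orderOf y ∣ 5 := by
    rw [← hP]
    exact Subgroup.orderOf_dvd_natCard _ hy
  have h3 : orderOf y ∣ 2 := orderOf_dvd_of_pow_eq_one (by rw [pow_two, h2])
  have h4 : orderOf y ∣ Nat.gcd 5 2 := Nat.dvd_gcd h1 h3
  have h5 : Nat.gcd 5 2 = 1 := by norm_num
  rw [h5, Nat.dvd_one] at h4
  exact orderOf_eq_one_iff.1 h4

theorem involution_data [IsSimpleGroup G] (h : Nat.card G = 4320) (P : Sylow 5 G)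
    (hN : Nat.card (normalizer ((P : Subgroup G) : Set G)) = 20)
    (hC : Nat.card (centralizer ((P : Subgroup G) : Set G)) = 10) :
    ∃ t : G, t * t = 1 ∧ t ≠ 1 ∧ t ∈ centralizer ((P : Subgroup G) : Set G) ∧
      Nat.card (centralizer ({t} : Set G)) = 120 ∧
      normalizer ((P : Subgroup G) : Set G) ≤ centralizer ({t} : Set G) := by
  classical
  haveI : Fact (Nat.Prime 5) := ⟨by norm_num⟩
  haveI : Fact (Nat.Prime 2) := ⟨by norm_num⟩
  have hGn : ¬ IsMulCommutative G := not_isMulCommutative_of_not_prime (by rw [h]; norm_num)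
  have hP : Nat.card (P : Subgroup G) = 5 := by
    rw [sylow_card_of_card_eq (p := 5) (a := 1) (m := 864) (by rw [h]; norm_num) (by norm_num) P, pow_one]
  have hn : Nat.card (Sylow 5 G) = 216 := by
    have h1 := card_normalizer_mul_card_sylow P
    rw [h, hN] at h1
    omega
  haveI hcyc : IsCyclic (P : Subgroup G) := isCyclic_of_prime_card hP
  have hPC : (P : Subgroup G) ≤ centralizer ((P : Subgroup G) : Set G) := Subgroup.le_centralizer _
  obtain ⟨t0, ht0⟩ := exists_prime_orderOf_dvd_card' (G := centralizer ((P : Subgroup G) : Set G)) 2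
    (by rw [hC]; norm_num)
  obtain ⟨t, htdef⟩ : ∃ t : G, t = (t0 : G) := ⟨_, rfl⟩
  have hto : orderOf t = 2 := by
    rw [htdef, Subgroup.orderOf_coe]
    exact ht0
  have ht2 : t * t = 1 := by
    rw [← pow_two, ← hto]
    exact pow_orderOf_eq_one t
  have ht1 : t ≠ 1 := by
    intro h1
    rw [h1, orderOf_one] at hto
    omega
  have htC : t ∈ centralizer ((P : Subgroup G) : Set G) := by
    rw [htdef]
    exact t0.2
  have hidx : ((P : Subgroup G).subgroupOf (centralizer ((P : Subgroup G) : Set G))).index = 2 := by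
    have h1 := Subgroup.card_mul_index ((P : Subgroup G).subgroupOf (centralizer ((P : Subgroup G) : Set G)))
    have h2 : Nat.card ((P : Subgroup G).subgroupOf (centralizer ((P : Subgroup G) : Set G))) = 5 :=
      (Nat.card_congr (Subgroup.subgroupOfEquivOfLe hPC).toEquiv).trans hP
    rw [h2, hC] at h1
    omega
  have huniq : ∀ s ∈ centralizer ((P : Subgroup G) : Set G), s * s = 1 → s ≠ 1 → s = t := by
    intro s hs hs2 hs1
    have h1 : ((⟨s, hs⟩ * t0 : centralizer ((P : Subgroup G) : Set G))) ∈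
        (P : Subgroup G).subgroupOf (centralizer ((P : Subgroup G) : Set G)) := by
      rw [Subgroup.mul_mem_iff_of_index_two hidx, Subgroup.mem_subgroupOf, Subgroup.mem_subgroupOf]
      constructor
      · intro hh
        exact absurd (eq_one_of_sq_of_card_five hP hh hs2) hs1
      · intro hh
        rw [← htdef] at hh
        exact absurd (eq_one_of_sq_of_card_five hP hh ht2) ht1
    rw [Subgroup.mem_subgroupOf] at h1
    have h2 : s * t ∈ (P : Subgroup G) := by
      rw [htdef]
      exact h1
    obtain ⟨u, hu⟩ : ∃ u, u = s * t := ⟨_, rfl⟩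
    rw [← hu] at h2
    have h3 : u * t = t * u := (Subgroup.mem_centralizer_iff.1 htC _ h2)
    have h4 : s = u * t := by rw [hu, mul_assoc, ht2, mul_one]
    have h5 : u * u = 1 := by
      calc u * u = u * u * (t * t) := by rw [ht2, mul_one]
        _ = u * (u * t) * t := by group
        _ = u * (t * u) * t := by rw [h3]
        _ = (u * t) * (u * t) := by group
        _ = s * s := by rw [← h4]
        _ = 1 := hs2
    have h6 := eq_one_of_sq_of_card_five hP h2 h5
    rw [h4, h6, one_mul]
  have hNt : normalizer ((P : Subgroup G) : Set G) ≤ centralizer ({t} : Set G) := by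
    intro g hg
    rw [Subgroup.mem_centralizer_singleton_iff]
    have hy : g * t * g⁻¹ ∈ centralizer ((P : Subgroup G) : Set G) := by
      rw [Subgroup.mem_centralizer_iff]
      intro u hu
      have h1 : g⁻¹ * u * g ∈ (P : Subgroup G) := by
        have := (mem_normalizer_iff.1 (inv_mem hg) u).1 hu
        simpa using this
      have h2 : (g⁻¹ * u * g) * t = t * (g⁻¹ * u * g) := Subgroup.mem_centralizer_iff.1 htC _ h1
      calc u * (g * t * g⁻¹) = g * ((g⁻¹ * u * g) * t) * g⁻¹ := by group
        _ = g * (t * (g⁻¹ * u * g)) * g⁻¹ := by rw [h2]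
        _ = g * t * g⁻¹ * u := by group
    have h3 : g * t * g⁻¹ = t := by
      apply huniq _ hy
      · calc g * t * g⁻¹ * (g * t * g⁻¹) = g * (t * t) * g⁻¹ := by group
          _ = 1 := by rw [ht2]; group
      · intro h1
        exact ht1 (conj_eq_one_iff.1 h1)
    calc g * t = g * t * g⁻¹ * g := by group
      _ = t * g := by rw [h3]
  have hp2 : ¬ 5 ^ 2 ∣ Nat.card G := by rw [h]; norm_num
  have hpG : 5 ∣ Nat.card G := by rw [h]; norm_num
  obtain ⟨n, hn5, hnlt, hcard, -, -, -⟩ := centralizer_data hGn hp2 hpG P hP ht1 htC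
  rw [inf_eq_right.2 hNt, hN] at hcard
  rw [hn] at hnlt
  have hdvd : n * 20 ∣ 4320 := by
    rw [← hcard, ← h]
    exact Subgroup.card_subgroup_dvd_card _
  have hd2 : n ∣ 216 := Nat.dvd_of_mul_dvd_mul_right (k := 20) (by norm_num) (by simpa using hdvd)
  have hcases : n = 1 ∨ n = 6 ∨ n = 36 := by
    have key : ∀ m < 216, m % 5 = 1 → m ∣ 216 → m = 1 ∨ m = 6 ∨ m = 36 := by decide +kernel
    exact key n hnlt hn5 hd2
  refine ⟨t, ht2, ht1, htC, ?_, hNt⟩
  rcases hcases with rfl | rfl | rfl
  · exfalso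
    have htN := Subgroup.centralizer_le_normalizer _ htC
    have h1 := fix_mul_class P htN
    haveI : Fintype G := Fintype.ofFinite G
    have h2 := Cfsg.Agent.Lib.CharInd.card_conj_mul_card_centralizer t
    rw [hcard, h] at h2
    have h3 : Nat.card {g : G // IsConj t g} = 216 := by omega
    rw [h3, hn] at h1
    obtain ⟨h5, -, h6, -⟩ := fixedBy_facts hGn (p := 5) (q := 2) hpG P htC hto
    have h7 := h6 rfl
    rw [hn] at h7
    have h8 : Nat.card {g : G // IsConj t g ∧ g ∈ normalizer ((P : Subgroup G) : Set G)} ≤ 15 := by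
      have h9 : {g : G | IsConj t g ∧ g ∈ normalizer ((P : Subgroup G) : Set G)} ⊆
          ((normalizer ((P : Subgroup G) : Set G) : Subgroup G) : Set G) \ ((P : Subgroup G) : Set G) := by
        rintro g ⟨hg1, hg2⟩
        refine ⟨hg2, fun hg3 => ?_⟩
        obtain ⟨c, hc⟩ := isConj_iff.1 hg1
        have hgg : g * g = 1 := by
          rw [← hc]
          calc c * t * c⁻¹ * (c * t * c⁻¹) = c * (t * t) * c⁻¹ := by group
            _ = 1 := by rw [ht2]; group
        have hg1' := eq_one_of_sq_of_card_five hP hg3 hgg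
        rw [hg1'] at hc
        exact ht1 (conj_eq_one_iff.1 hc)
      have h10 := Set.ncard_le_ncard h9 (Set.toFinite _)
      have hPN : ((P : Subgroup G) : Set G) ⊆ ((normalizer ((P : Subgroup G) : Set G) : Subgroup G) : Set G) :=
        Subgroup.le_normalizer
      rw [Set.ncard_sdiff hPN (Set.toFinite _)] at h10
      have h11 : Set.ncard ((normalizer ((P : Subgroup G) : Set G) : Subgroup G) : Set G) = 20 := by
        rw [← Nat.card_coe_set_eq]; exact hN
      have h12 : Set.ncard ((P : Subgroup G) : Set G) = 5 := by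
        rw [← Nat.card_coe_set_eq]; exact hP
      rw [h11, h12] at h10
      rw [← Nat.card_coe_set_eq] at h10
      exact h10
    omega
  · simpa using hcard
  · exfalso
    have h1 := eq_top_of_card_gt h (centralizer ({t} : Set G)) (by rw [hcard]; norm_num)
    exact centralizer_singleton_ne_top hGn ht1 h1

/-- The central subgroup of order two in the centralizer of an involution. -/
def Z0 (t : G) (ht2 : t * t = 1) : Subgroup (centralizer ({t} : Set G)) where
  carrier := {w | (w : G) = 1 ∨ (w : G) = t}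
  mul_mem' := by
    rintro a b (ha | ha) (hb | hb)
    · left; simp [ha, hb]
    · right; simp [ha, hb]
    · right; simp [ha, hb]
    · left; simp [ha, hb, ht2]
  one_mem' := Or.inl rfl
  inv_mem' := by
    have h8 : t⁻¹ = t := inv_eq_of_mul_eq_one_left ht2
    rintro a (ha | ha)
    · left; simp [ha]
    · right; simp [ha, h8]

lemma mem_Z0 {t : G} {ht2 : t * t = 1} {w : centralizer ({t} : Set G)} :
    w ∈ Z0 t ht2 ↔ (w : G) = 1 ∨ (w : G) = t := Iff.rfl

instance normal_Z0 (t : G) (ht2 : t * t = 1) : (Z0 t ht2).Normal := by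
  constructor
  rintro n (hn | hn) g
  · left; simp [hn]
  · right
    have h1 : (g : G) * t = t * g := Subgroup.mem_centralizer_singleton_iff.1 g.2
    simp only [coe_mul, InvMemClass.coe_inv, hn]
    rw [h1]
    group

lemma card_Z0 (t : G) (ht2 : t * t = 1) (ht1 : t ≠ 1) : Nat.card (Z0 t ht2) = 2 := by
  rw [Nat.card_eq_two_iff]
  have htX : t ∈ centralizer ({t} : Set G) := Subgroup.mem_centralizer_singleton_iff.2 rfl
  refine ⟨1, ⟨⟨t, htX⟩, Or.inr rfl⟩, ?_, ?_⟩
  · intro h
    have h1 := congrArg (fun w : Z0 t ht2 => ((w : centralizer ({t} : Set G)) : G)) h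
    exact ht1 h1.symm
  · ext w
    simp only [Set.mem_insert_iff, Set.mem_singleton_iff, Set.mem_univ, iff_true]
    rcases w with ⟨w, hw⟩
    rcases hw with hw | hw
    · left
      apply Subtype.ext
      apply Subtype.ext
      exact hw
    · right
      apply Subtype.ext
      apply Subtype.ext
      exact hw

lemma mk_eq_iff {t : G} {ht2 : t * t = 1} (x y : centralizer ({t} : Set G)) :
    ((x : centralizer ({t} : Set G)) : centralizer ({t} : Set G) ⧸ Z0 t ht2) = y ↔ (y : G) = x ∨ (y : G) = x * t := by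
  rw [QuotientGroup.eq, mem_Z0]
  simp only [coe_mul, InvMemClass.coe_inv]
  constructor
  · rintro (h | h)
    · left
      exact (inv_mul_eq_one.1 h).symm
    · right
      exact inv_mul_eq_iff_eq_mul.1 h
  · rintro (h | h)
    · left
      rw [h, inv_mul_cancel]
    · right
      rw [h, inv_mul_cancel_left]

theorem hom_of_data (h : Nat.card G = 4320) (P : Sylow 5 G) (t : G)
    (hN : Nat.card (normalizer ((P : Subgroup G) : Set G)) = 20)
    (hC : Nat.card (centralizer ((P : Subgroup G) : Set G)) = 10)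
    (ht2 : t * t = 1) (ht1 : t ≠ 1) (htC : t ∈ centralizer ((P : Subgroup G) : Set G))
    (hX : Nat.card (centralizer ({t} : Set G)) = 120) :
    ∃ π : centralizer ({t} : Set G) →* A5, Function.Surjective π ∧
      ∀ x : centralizer ({t} : Set G), π x = 1 ↔ (x : G) = 1 ∨ (x : G) = t := by
  classical
  haveI : Fact (Nat.Prime 5) := ⟨by norm_num⟩
  have hP : Nat.card (P : Subgroup G) = 5 := by
    rw [sylow_card_of_card_eq (p := 5) (a := 1) (m := 864) (by rw [h]; norm_num) (by norm_num) P, pow_one]
  haveI hcyc : IsCyclic (P : Subgroup G) := isCyclic_of_prime_card hP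
  have hPC : (P : Subgroup G) ≤ centralizer ((P : Subgroup G) : Set G) := Subgroup.le_centralizer _
  have hidx : ((P : Subgroup G).subgroupOf (centralizer ((P : Subgroup G) : Set G))).index = 2 := by
    have h1 := Subgroup.card_mul_index ((P : Subgroup G).subgroupOf (centralizer ((P : Subgroup G) : Set G)))
    have h2 : Nat.card ((P : Subgroup G).subgroupOf (centralizer ((P : Subgroup G) : Set G))) = 5 :=
      (Nat.card_congr (Subgroup.subgroupOfEquivOfLe hPC).toEquiv).trans hP
    rw [h2, hC] at h1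
    omega
  have htnP : t ∉ (P : Subgroup G) := fun hh => ht1 (eq_one_of_sq_of_card_five hP hh ht2)
  have hmemor : ∀ x ∈ centralizer ((P : Subgroup G) : Set G), x ∈ (P : Subgroup G) ∨ x * t ∈ (P : Subgroup G) := by
    intro x hx
    by_cases hxP : x ∈ (P : Subgroup G)
    · exact Or.inl hxP
    · right
      have h1 : ((⟨x, hx⟩ * ⟨t, htC⟩ : centralizer ((P : Subgroup G) : Set G))) ∈
          (P : Subgroup G).subgroupOf (centralizer ((P : Subgroup G) : Set G)) := by
        rw [Subgroup.mul_mem_iff_of_index_two hidx, Subgroup.mem_subgroupOf, Subgroup.mem_subgroupOf]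
        exact ⟨fun hh => absurd hh hxP, fun hh => absurd hh htnP⟩
      rw [Subgroup.mem_subgroupOf] at h1
      exact h1
  have hcP : ∀ u ∈ (P : Subgroup G), u * t = t * u := fun u hu => Subgroup.mem_centralizer_iff.1 htC u hu
  have hpow : ∀ u ∈ (P : Subgroup G), u ^ 5 = 1 := by
    intro u hu
    have h1 : (⟨u, hu⟩ : (P : Subgroup G)) ^ Nat.card (P : Subgroup G) = 1 := pow_card_eq_one'
    rw [hP] at h1
    exact congrArg Subtype.val h1
  have hnotconj : ∀ g u w : G, u ∈ (P : Subgroup G) → w ∈ (P : Subgroup G) → g * u * g⁻¹ ≠ w * t := by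
    intro g u w hu hw he
    have h1 : (g * u * g⁻¹) ^ 5 = 1 := by rw [conj_pow, hpow u hu]; group
    rw [he] at h1
    have h2 : Commute w t := hcP w hw
    rw [h2.mul_pow, hpow w hw, one_mul] at h1
    apply ht1
    calc t = t ^ 5 := by simp only [pow_succ, pow_zero, one_mul, mul_assoc, ht2, mul_one]
      _ = 1 := h1
  have hPX : (P : Subgroup G) ≤ centralizer ({t} : Set G) := fun u hu =>
    Subgroup.mem_centralizer_singleton_iff.2 (hcP u hu)
  obtain ⟨Pq, hPq⟩ : ∃ Pq : Subgroup (centralizer ({t} : Set G) ⧸ Z0 t ht2),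
      Pq = ((P : Subgroup G).subgroupOf (centralizer ({t} : Set G))).map (QuotientGroup.mk' (Z0 t ht2)) := ⟨_, rfl⟩
  have hmemq : ∀ u (hu : u ∈ (P : Subgroup G)), ((⟨u, hPX hu⟩ : centralizer ({t} : Set G)) : centralizer ({t} : Set G) ⧸ Z0 t ht2) ∈ Pq := by
    intro u hu
    rw [hPq]
    exact ⟨⟨u, hPX hu⟩, hu, rfl⟩
  have hmemq' : ∀ q ∈ Pq, ∃ u, ∃ hu : u ∈ (P : Subgroup G), q = ((⟨u, hPX hu⟩ : centralizer ({t} : Set G)) : centralizer ({t} : Set G) ⧸ Z0 t ht2) := by
    intro q hq
    rw [hPq] at hq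
    obtain ⟨y, hy, rfl⟩ := hq
    exact ⟨y, hy, rfl⟩
  have hcQ : Nat.card (centralizer ({t} : Set G) ⧸ Z0 t ht2) = 60 := by
    have h1 := Subgroup.card_eq_card_quotient_mul_card_subgroup (Z0 t ht2)
    rw [hX, card_Z0 t ht2 ht1] at h1
    omega
  have hPq5 : Nat.card Pq = 5 := by
    have h1 : Nat.card Pq ∣ 5 := by
      have h2 : Nat.card ((P : Subgroup G).subgroupOf (centralizer ({t} : Set G))) = 5 :=
        (Nat.card_congr (Subgroup.subgroupOfEquivOfLe hPX).toEquiv).trans hP
      have h3 := Subgroup.card_map_dvd ((P : Subgroup G).subgroupOf (centralizer ({t} : Set G))) (QuotientGroup.mk' (Z0 t ht2))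
      rw [h2, ← hPq] at h3
      exact h3
    rcases (Nat.dvd_prime (by norm_num)).1 h1 with h2 | h2
    · exfalso
      have h3 : Pq = ⊥ := Subgroup.eq_bot_of_card_eq Pq h2
      obtain ⟨u, hu, hu1⟩ := (Subgroup.bot_or_exists_ne_one (P : Subgroup G)).resolve_left (by
        intro hb
        rw [hb] at hP
        simp at hP)
      have h4 := hmemq u hu
      rw [h3, Subgroup.mem_bot] at h4
      rcases (QuotientGroup.eq_one_iff _).1 h4 with h5 | h5
      · exact hu1 h5
      · apply htnP
        rw [← show u = t from h5]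
        exact hu
    · exact h2
  have hPqp : IsPGroup 5 Pq := IsPGroup.of_card (n := 1) (by rw [hPq5, pow_one])
  obtain ⟨S, hS⟩ := hPqp.exists_le_sylow
  have hSc : Nat.card (S : Subgroup (centralizer ({t} : Set G) ⧸ Z0 t ht2)) = 5 := by
    rw [sylow_card_of_card_eq (p := 5) (a := 1) (m := 12) (by rw [hcQ]; norm_num) (by norm_num) S, pow_one]
  have hSeq : Pq = (S : Subgroup (centralizer ({t} : Set G) ⧸ Z0 t ht2)) :=
    Subgroup.eq_of_le_of_card_ge hS (by rw [hSc, hPq5])
  have hXcomm : ∀ (x : centralizer ({t} : Set G)), (x : G) * t = t * x := fun x =>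
    Subgroup.mem_centralizer_singleton_iff.1 x.2
  have hcent : centralizer ((S : Subgroup (centralizer ({t} : Set G) ⧸ Z0 t ht2)) : Set (centralizer ({t} : Set G) ⧸ Z0 t ht2)) ≤ S := by
    intro q hq
    obtain ⟨x, rfl⟩ := QuotientGroup.mk_surjective q
    rw [Subgroup.mem_centralizer_iff] at hq
    have hxC : (x : G) ∈ centralizer ((P : Subgroup G) : Set G) := by
      rw [Subgroup.mem_centralizer_iff]
      intro u hu
      have h1 := hq _ (hS (hmemq u hu))
      rw [← QuotientGroup.mk_mul, ← QuotientGroup.mk_mul, mk_eq_iff] at h1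
      simp only [coe_mul] at h1
      rcases h1 with h1 | h1
      · exact h1.symm
      · exfalso
        apply hnotconj x u u hu hu
        calc (x : G) * u * (x : G)⁻¹ = (u * x * t) * (x : G)⁻¹ := by rw [h1]
          _ = u * (x * t) * (x : G)⁻¹ := by group
          _ = u * (t * x) * (x : G)⁻¹ := by rw [hXcomm x]
          _ = u * t := by group
    rw [← hSeq]
    rcases hmemor _ hxC with h1 | h1
    · exact hmemq _ h1
    · have h2 := hmemq _ h1
      have h3 : ((⟨(x : G) * t, hPX h1⟩ : centralizer ({t} : Set G)) : centralizer ({t} : Set G) ⧸ Z0 t ht2) = (x : centralizer ({t} : Set G) ⧸ Z0 t ht2) := by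
        symm
        rw [mk_eq_iff]
        exact Or.inr rfl
      rwa [h3] at h2
  have hnn : ¬ (S : Subgroup (centralizer ({t} : Set G) ⧸ Z0 t ht2)).Normal := by
    intro hnorm
    have hcj : ∀ g ∈ centralizer ({t} : Set G), ∀ u ∈ (P : Subgroup G), g * u * g⁻¹ ∈ (P : Subgroup G) := by
      intro g hg u hu
      have h1 := hmemq u hu
      rw [hSeq] at h1
      have h2 := hnorm.conj_mem _ h1 ((⟨g, hg⟩ : centralizer ({t} : Set G)) : centralizer ({t} : Set G) ⧸ Z0 t ht2)
      rw [← hSeq] at h2
      obtain ⟨w, hw, hwe⟩ := hmemq' _ h2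
      rw [← QuotientGroup.mk_inv, ← QuotientGroup.mk_mul, ← QuotientGroup.mk_mul, eq_comm, mk_eq_iff] at hwe
      simp only [coe_mul, InvMemClass.coe_inv] at hwe
      rcases hwe with hwe | hwe
      · rw [hwe]
        exact hw
      · exfalso
        exact hnotconj g u w hu hw hwe
    have hle : centralizer ({t} : Set G) ≤ normalizer ((P : Subgroup G) : Set G) := by
      intro g hg
      rw [mem_normalizer_iff]
      intro u
      refine ⟨fun hu => hcj g hg u hu, fun hu => ?_⟩
      have h1 := hcj g⁻¹ (inv_mem hg) _ hu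
      have h2 : g⁻¹ * (g * u * g⁻¹) * g⁻¹⁻¹ = u := by group
      rwa [h2] at h1
    have h1 := Subgroup.card_le_of_le hle
    rw [hX, hN] at h1
    omega
  haveI hsimp : IsSimpleGroup (centralizer ({t} : Set G) ⧸ Z0 t ht2) :=
    Cfsg.Agent.Lib.O4320Sixty79.isSimple_of_card_sixty hcQ S hcent hnn
  obtain ⟨e⟩ := Cfsg.Agent.S0494.result hcQ
  refine ⟨e.toMonoidHom.comp (QuotientGroup.mk' (Z0 t ht2)), ?_, ?_⟩
  · exact e.surjective.comp (QuotientGroup.mk'_surjective _)
  · intro x
    simp only [MonoidHom.comp_apply, MulEquiv.coe_toMonoidHom, QuotientGroup.mk'_apply]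
    rw [map_eq_one_iff e e.injective, QuotientGroup.eq_one_iff, mem_Z0]

theorem case_two [IsSimpleGroup G] (h : Nat.card G = 4320) (P : Sylow 5 G)
    (hN : Nat.card (normalizer ((P : Subgroup G) : Set G)) = 20)
    (hC : Nat.card (centralizer ((P : Subgroup G) : Set G)) = 10) : False := by
  have hGn : ¬ IsMulCommutative G := not_isMulCommutative_of_not_prime (by rw [h]; norm_num)
  obtain ⟨t, ht2, ht1, htC, hX, -⟩ := involution_data h P hN hC
  obtain ⟨π, hsurj, hker⟩ := hom_of_data h P t hN hC ht2 ht1 htC hX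
  exact contra_of_hom (perfect_of_simple hGn) h t ht2 ht1 hX π hsurj hker

end Cfsg.Agent.Lib.O4320II79
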