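import Mathlib
import Cfsg.Agent.Lib.O4320II79
import Cfsg.Agent.Lib.D8Index

/-!
# Groups of order 4320: `n₅ = 36`, first part
-/

set_option autoImplicit false
set_option linter.style.haveILetI false

namespace Cfsg.Agent.Lib.O4320I79

open Subgroup Cfsg.Agent.Lib.SmallGroups2 Cfsg.Agent.Lib.TwoLocal Cfsg.Agent.Lib.TwoLocal2
  Cfsg.Agent.Lib.O4320Base79 Cfsg.Agent.Lib.O4320Abs79 Cfsg.Agent.Lib.O4320II79

variable {G : Type*} [Group G] [Finite G]

/-- In a group of order 60 with a central subgroup of order five and four Sylow 3-subgroups, the elements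
of order dividing four form a subgroup of order four. -/
theorem exists_klein_abstract {K : Type*} [Group K] [Finite K] (hK : Nat.card K = 60) (Pz : Subgroup K)
    (hPz : Nat.card Pz = 5) (hcen : ∀ y ∈ Pz, ∀ x : K, x * y = y * x) (hn3 : Nat.card (Sylow 3 K) = 4) :
    ∃ V₀ : Subgroup K, Nat.card V₀ = 4 ∧ ∀ x : K, x ∈ V₀ ↔ x ^ 4 = 1 := by
  classical
  haveI : Fact (Nat.Prime 3) := ⟨by norm_num⟩
  haveI : Fact (Nat.Prime 2) := ⟨by norm_num⟩
  have hP3 : ∀ S : Sylow 3 K, Nat.card (S : Subgroup K) = 3 := fun S => by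
    rw [sylow_card_of_card_eq (p := 3) (a := 1) (m := 20) (by rw [hK]; norm_num) (by norm_num) S, pow_one]
  have hΩ : Nat.card {x : K // orderOf x = 3} = 8 := by
    rw [card_orderOf_eq_prime hP3, hn3]
  have hy5 : ∀ y ∈ Pz, y ^ 5 = 1 := by
    intro y hy
    have h1 : (⟨y, hy⟩ : Pz) ^ Nat.card Pz = 1 := pow_card_eq_one'
    rw [hPz] at h1
    exact congrArg Subtype.val h1
  -- many elements with non-trivial 20th power
  have hA : 40 ≤ Nat.card {h : K // h ^ 20 ≠ 1} := by
    let f : {x : K // orderOf x = 3} × Pz → {h : K // h ^ 20 ≠ 1} := fun p => ⟨p.1.1 * p.2.1, by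
      have hc : Commute p.1.1 p.2.1 := hcen _ p.2.2 _
      rw [hc.mul_pow, show (p.2.1 : K) ^ 20 = ((p.2.1 : K) ^ 5) ^ 4 by rw [← pow_mul], hy5 _ p.2.2, one_pow, mul_one]
      intro hx
      have h1 : orderOf p.1.1 ∣ 20 := orderOf_dvd_of_pow_eq_one hx
      rw [p.1.2] at h1
      omega⟩
    have hf : Function.Injective f := by
      rintro ⟨⟨x, hx⟩, ⟨y, hy⟩⟩ ⟨⟨x', hx'⟩, ⟨y', hy'⟩⟩ hff
      have h1 : x * y = x' * y' := congrArg Subtype.val hff
      have h2 : x = x' * (y' * y⁻¹) := by
        calc x = x * y * y⁻¹ := by group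
          _ = x' * y' * y⁻¹ := by rw [h1]
          _ = x' * (y' * y⁻¹) := by group
      have hz : y' * y⁻¹ ∈ Pz := mul_mem hy' (inv_mem hy)
      have h3 : Commute x' (y' * y⁻¹) := hcen _ hz _
      have hx3 : x ^ 3 = 1 := by rw [← hx]; exact pow_orderOf_eq_one x
      have hx'3 : x' ^ 3 = 1 := by rw [← hx']; exact pow_orderOf_eq_one x'
      have h4 : (y' * y⁻¹) ^ 3 = 1 := by
        have h5 : x ^ 3 = (x' * (y' * y⁻¹)) ^ 3 := by rw [← h2]
        rw [h3.mul_pow, hx3, hx'3, one_mul] at h5
        exact h5.symm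
      have h6 : y' * y⁻¹ = 1 := by
        have h7 := hy5 _ hz
        have h8 : orderOf (y' * y⁻¹) ∣ Nat.gcd 3 5 := Nat.dvd_gcd (orderOf_dvd_of_pow_eq_one h4) (orderOf_dvd_of_pow_eq_one h7)
        have h9 : Nat.gcd 3 5 = 1 := by norm_num
        rw [h9, Nat.dvd_one] at h8
        exact orderOf_eq_one_iff.1 h8
      have h10 : x = x' := by rw [h2, h6, mul_one]
      have h11 : y' = y := mul_inv_eq_one.1 h6
      subst h10 h11
      rfl
    have h1 := Nat.card_le_card_of_injective f hf
    rw [Nat.card_prod, hΩ, hPz] at h1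
    omega
  have hB : Nat.card {h : K // h ^ 20 = 1} ≤ 20 := by
    have h1 := Nat.card_congr (Equiv.sumCompl (fun h : K => h ^ 20 = 1))
    rw [Nat.card_sum, hK] at h1
    have h2 : Nat.card {h : K // ¬ h ^ 20 = 1} = Nat.card {h : K // h ^ 20 ≠ 1} := rfl
    omega
  obtain ⟨V⟩ : Nonempty (Sylow 2 K) := inferInstance
  have hV : Nat.card (V : Subgroup K) = 4 := by
    rw [sylow_card_of_card_eq (p := 2) (a := 2) (m := 15) (by rw [hK]; norm_num) (by norm_num) V]
    norm_num
  have ha4 : ∀ a ∈ (V : Subgroup K), a ^ 4 = 1 := by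
    intro a ha
    have h1 : (⟨a, ha⟩ : (V : Subgroup K)) ^ Nat.card (V : Subgroup K) = 1 := pow_card_eq_one'
    rw [hV] at h1
    exact congrArg Subtype.val h1
  let g : ↥(V : Subgroup K) × ↥Pz → {h : K // h ^ 20 = 1} := fun p => ⟨p.1.1 * p.2.1, by
    have hc : Commute p.1.1 p.2.1 := hcen _ p.2.2 _
    rw [hc.mul_pow, show (p.2.1 : K) ^ 20 = ((p.2.1 : K) ^ 5) ^ 4 by rw [← pow_mul], hy5 _ p.2.2, one_pow, mul_one,
      show (p.1.1 : K) ^ 20 = ((p.1.1 : K) ^ 4) ^ 5 by rw [← pow_mul], ha4 _ p.1.2, one_pow]⟩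
  have hy1 : ∀ y ∈ Pz, y ^ 4 = 1 → y = 1 := by
    intro y hy h4
    have h7 := hy5 _ hy
    have h8 : orderOf y ∣ Nat.gcd 4 5 := Nat.dvd_gcd (orderOf_dvd_of_pow_eq_one h4) (orderOf_dvd_of_pow_eq_one h7)
    have h9 : Nat.gcd 4 5 = 1 := by norm_num
    rw [h9, Nat.dvd_one] at h8
    exact orderOf_eq_one_iff.1 h8
  have hg : Function.Injective g := by
    rintro ⟨⟨a, ha⟩, ⟨y, hy⟩⟩ ⟨⟨a', ha'⟩, ⟨y', hy'⟩⟩ hff
    have h1 : a * y = a' * y' := congrArg Subtype.val hff
    have h2 : a'⁻¹ * a = y' * y⁻¹ := by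
      calc a'⁻¹ * a = a'⁻¹ * (a * y) * y⁻¹ := by group
        _ = a'⁻¹ * (a' * y') * y⁻¹ := by rw [h1]
        _ = y' * y⁻¹ := by group
    have h3 : y' * y⁻¹ ∈ Pz := mul_mem hy' (inv_mem hy)
    have h4 : (y' * y⁻¹) ^ 4 = 1 := by
      rw [← h2]
      exact ha4 _ (mul_mem (inv_mem ha') ha)
    have h5 := hy1 _ h3 h4
    have h6 : y' = y := mul_inv_eq_one.1 h5
    have h7 : a = a' := by
      rw [h5] at h2
      exact (inv_mul_eq_one.1 h2).symm
    subst h6 h7
    rfl
  have hgs : Function.Surjective g := by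
    have h1 : Nat.card (↥(V : Subgroup K) × ↥Pz) = 20 := by rw [Nat.card_prod, hV, hPz]
    have hbij := (Function.Injective.bijective_of_nat_card_le hg (by rw [h1]; exact hB))
    exact hbij.2
  refine ⟨V, hV, fun x => ⟨fun hx => ha4 x hx, fun hx => ?_⟩⟩
  have hx20 : x ^ 20 = 1 := by
    rw [show x ^ 20 = (x ^ 4) ^ 5 by rw [← pow_mul], hx, one_pow]
  obtain ⟨⟨⟨a, ha⟩, ⟨y, hy⟩⟩, hp⟩ := hgs ⟨x, hx20⟩
  have h1 : a * y = x := congrArg Subtype.val hp
  have hc : Commute a y := hcen _ hy _
  have h2 : y ^ 4 = 1 := by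
    have h3 : (a * y) ^ 4 = 1 := by rw [h1]; exact hx
    rw [hc.mul_pow, ha4 a ha, one_mul] at h3
    exact h3
  have h3 := hy1 y hy h2
  rw [← h1, h3, mul_one]
  exact ha

lemma centralizer_le_normalizer_zpowers {K : Type*} [Group K] (c : K) :
    centralizer ({c} : Set K) ≤ normalizer ((zpowers c : Subgroup K) : Set K) := by
  intro x hx
  have h1 : x ∈ centralizer ((zpowers c : Subgroup K) : Set K) := by
    rw [Subgroup.mem_centralizer_iff]
    intro y hy
    obtain ⟨k, rfl⟩ := Subgroup.mem_zpowers_iff.1 hy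
    have h2 : Commute x c := Subgroup.mem_centralizer_singleton_iff.1 hx
    exact (h2.zpow_right k).eq.symm
  exact Subgroup.centralizer_le_normalizer _ h1

lemma mem_normalizer_zpowers_of_inv {K : Type*} [Group K] {c g : K} (hg : g * c * g⁻¹ = c⁻¹) :
    g ∈ normalizer ((zpowers c : Subgroup K) : Set K) := by
  rw [Subgroup.mem_normalizer_iff]
  intro y
  have hg' : g⁻¹ * c * g = c⁻¹ := by
    have h1 : c = g⁻¹ * c⁻¹ * g := by
      rw [← hg]
      group
    have h2 : g⁻¹ * c * g = (g⁻¹ * c⁻¹ * g)⁻¹ := by group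
    rw [h2, ← h1]
  constructor
  · intro hy
    obtain ⟨k, rfl⟩ := Subgroup.mem_zpowers_iff.1 hy
    have h1 : g * c ^ k * g⁻¹ = (g * c * g⁻¹) ^ k := by
      rw [conj_zpow]
    rw [h1, hg]
    exact inv_mem (zpow_mem (Subgroup.mem_zpowers c) k) |> fun h => by
      rw [inv_zpow]
      exact h
  · intro hy
    obtain ⟨k, hk⟩ := Subgroup.mem_zpowers_iff.1 hy
    have h1 : y = g⁻¹ * (c ^ k) * g := by
      rw [hk]
      group
    have h2 : g⁻¹ * c ^ k * g = (g⁻¹ * c * g) ^ k := by
      have := conj_zpow (a := g⁻¹) (b := c) (i := k)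
      simpa using this.symm
    rw [h1, h2, hg', inv_zpow]
    exact inv_mem (zpow_mem (Subgroup.mem_zpowers c) k)

/-- `N` normalizes the centralizer of `P`. -/
lemma conj_mem_centralizer {P : Subgroup G} {g x : G} (hg : g ∈ normalizer (P : Set G)) (hx : x ∈ centralizer (P : Set G)) :
    g * x * g⁻¹ ∈ centralizer (P : Set G) := by
  rw [Subgroup.mem_centralizer_iff]
  intro u hu
  have h1 : g⁻¹ * u * g ∈ P := by
    have := (mem_normalizer_iff.1 (inv_mem hg) u).1 hu
    simpa using this
  have h2 : (g⁻¹ * u * g) * x = x * (g⁻¹ * u * g) := Subgroup.mem_centralizer_iff.1 hx _ h1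
  calc u * (g * x * g⁻¹) = g * ((g⁻¹ * u * g) * x) * g⁻¹ := by group
    _ = g * (x * (g⁻¹ * u * g)) * g⁻¹ := by rw [h2]
    _ = g * x * g⁻¹ * u := by group

theorem structure_of_C [IsSimpleGroup G] (h : Nat.card G = 4320) (P : Sylow 5 G)
    (hN : Nat.card (normalizer ((P : Subgroup G) : Set G)) = 120) {c : G}
    (hcC : c ∈ centralizer ((P : Subgroup G) : Set G)) (hc3 : orderOf c = 3)
    (hCc : Nat.card (centralizer ((P : Subgroup G) : Set G)) = 30 ∨ Nat.card (centralizer ((P : Subgroup G) : Set G)) = 60)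
    (h6 : Nat.card (centralizer ({c} : Set G)) = 6 * Nat.card (centralizer ({c} : Set G) ⊓ normalizer ((P : Subgroup G) : Set G) : Subgroup G)) :
    Nat.card (centralizer ((P : Subgroup G) : Set G)) = 60 ∧ Nat.card (Sylow 3 (centralizer ((P : Subgroup G) : Set G))) = 4 ∧
      Nat.card (centralizer ({c} : Set G) ⊓ centralizer ((P : Subgroup G) : Set G) : Subgroup G) = 15 := by
  classical
  haveI : Fact (Nat.Prime 5) := ⟨by norm_num⟩
  haveI : Fact (Nat.Prime 3) := ⟨by norm_num⟩
  have hGn : ¬ IsMulCommutative G := not_isMulCommutative_of_not_prime (by rw [h]; norm_num)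
  have hP : Nat.card (P : Subgroup G) = 5 := by
    rw [sylow_card_of_card_eq (p := 5) (a := 1) (m := 864) (by rw [h]; norm_num) (by norm_num) P, pow_one]
  haveI hcyc : IsCyclic (P : Subgroup G) := isCyclic_of_prime_card hP
  have hPC : (P : Subgroup G) ≤ centralizer ((P : Subgroup G) : Set G) := Subgroup.le_centralizer _
  have hc1 : c ≠ 1 := by
    intro h1
    rw [h1, orderOf_one] at hc3
    omega
  obtain ⟨cc, hcc⟩ : ∃ cc : centralizer ((P : Subgroup G) : Set G), cc = ⟨c, hcC⟩ := ⟨_, rfl⟩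
  have hcco : orderOf cc = 3 := by
    rw [← hc3, hcc, ← Subgroup.orderOf_coe]
  have hcc1 : cc ≠ 1 := by
    intro h1
    rw [h1, orderOf_one] at hcco
    omega
  obtain ⟨T, hT⟩ := exists_sylow_mem_of_orderOf hcco
  have hTc : Nat.card (T : Subgroup (centralizer ((P : Subgroup G) : Set G))) = 3 := by
    rcases hCc with hCc | hCc
    · rw [sylow_card_of_card_eq (p := 3) (a := 1) (m := 10) (by rw [hCc]; norm_num) (by norm_num) T, pow_one]
    · rw [sylow_card_of_card_eq (p := 3) (a := 1) (m := 20) (by rw [hCc]; norm_num) (by norm_num) T, pow_one]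
  have hTz : zpowers cc = (T : Subgroup (centralizer ((P : Subgroup G) : Set G))) :=
    zpowers_eq_of_mem_of_ne_one (by norm_num) hTc hT hcc1
  have hcentral : ∀ (y x : centralizer ((P : Subgroup G) : Set G)), (y : G) ∈ (P : Subgroup G) → y * x = x * y := by
    intro y x hy
    apply Subtype.ext
    exact Subgroup.mem_centralizer_iff.1 x.2 _ hy
  have hNT15 : 15 ∣ Nat.card (normalizer ((T : Subgroup (centralizer ((P : Subgroup G) : Set G))) : Set (centralizer ((P : Subgroup G) : Set G)))) := by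
    have h3 : 3 ∣ Nat.card (normalizer ((T : Subgroup (centralizer ((P : Subgroup G) : Set G))) : Set (centralizer ((P : Subgroup G) : Set G)))) := by
      have h0 := Subgroup.card_dvd_of_le (Subgroup.le_normalizer (H := (T : Subgroup (centralizer ((P : Subgroup G) : Set G)))))
      rwa [hTc] at h0
    have h5 : 5 ∣ Nat.card (normalizer ((T : Subgroup (centralizer ((P : Subgroup G) : Set G))) : Set (centralizer ((P : Subgroup G) : Set G)))) := by
      have hPle : (P : Subgroup G).subgroupOf (centralizer ((P : Subgroup G) : Set G)) ≤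
          normalizer ((T : Subgroup (centralizer ((P : Subgroup G) : Set G))) : Set (centralizer ((P : Subgroup G) : Set G))) := by
        intro y hy
        rw [mem_normalizer_iff]
        intro x
        have h1 : y * x * y⁻¹ = x := by
          rw [hcentral y x hy]
          group
        rw [h1]
      have h0 := Subgroup.card_dvd_of_le hPle
      have h2 : Nat.card ((P : Subgroup G).subgroupOf (centralizer ((P : Subgroup G) : Set G))) = 5 :=
        (Nat.card_congr (Subgroup.subgroupOfEquivOfLe hPC).toEquiv).trans hP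
      rwa [h2] at h0
    exact Nat.Coprime.mul_dvd_of_dvd_of_dvd (by norm_num) h3 h5
  have hmul := card_normalizer_mul_card_sylow T
  have hmod : Nat.card (Sylow 3 (centralizer ((P : Subgroup G) : Set G))) % 3 = 1 := card_sylow_mod (p := 3)
  obtain ⟨k, hk⟩ := hNT15
  obtain ⟨n₃, hn₃⟩ : ∃ n₃, n₃ = Nat.card (Sylow 3 (centralizer ((P : Subgroup G) : Set G))) := ⟨_, rfl⟩
  rw [hk, ← hn₃] at hmul
  rw [← hn₃] at hmod
  have hcases : n₃ = 1 ∨ (n₃ = 4 ∧ Nat.card (centralizer ((P : Subgroup G) : Set G)) = 60) := by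
    rcases hCc with hCc | hCc
    · rw [hCc] at hmul
      have h1 : n₃ ∣ 2 := ⟨k, by nlinarith⟩
      have h2 : n₃ ≤ 2 := Nat.le_of_dvd (by norm_num) h1
      left
      interval_cases n₃ <;> omega
    · rw [hCc] at hmul
      have h1 : n₃ ∣ 4 := ⟨k, by nlinarith⟩
      have h2 : n₃ ≤ 4 := Nat.le_of_dvd (by norm_num) h1
      interval_cases n₃ <;> first | omega | simp [hCc]
  rcases hcases with hn1 | ⟨hn4, hC60⟩
  · exfalso
    -- a normal Sylow 3-subgroup in `C`
    haveI hsub : Subsingleton (Sylow 3 (centralizer ((P : Subgroup G) : Set G))) := by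
      rw [hn₃] at hn1
      exact (Nat.card_eq_one_iff_unique.1 hn1).1
    have hconj : ∀ g ∈ normalizer ((P : Subgroup G) : Set G), g * c * g⁻¹ = c ∨ g * c * g⁻¹ = c⁻¹ := by
      intro g hg
      obtain ⟨y, hy⟩ : ∃ y : centralizer ((P : Subgroup G) : Set G), y = ⟨g * c * g⁻¹, conj_mem_centralizer hg hcC⟩ := ⟨_, rfl⟩
      have hyo : orderOf y = 3 := by
        apply orderOf_eq_prime
        · apply Subtype.ext
          rw [hy]
          change (g * c * g⁻¹) ^ 3 = 1
          rw [conj_pow, ← hc3, pow_orderOf_eq_one]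
          group
        · intro h1
          rw [hy] at h1
          have h2 : g * c * g⁻¹ = 1 := congrArg Subtype.val h1
          exact hc1 (conj_eq_one_iff.1 h2)
      obtain ⟨T', hT'⟩ := exists_sylow_mem_of_orderOf hyo
      have hTT : T' = T := Subsingleton.elim _ _
      rw [hTT, ← hTz] at hT'
      obtain ⟨k, hk⟩ := Subgroup.mem_zpowers_iff.1 hT'
      have hyk : (g * c * g⁻¹) = (y : G) := by rw [hy]
      rw [hyk, ← hk, ← zpow_mod_orderOf, hcco]
      have hk3 : k % ((3 : ℕ) : ℤ) = 0 ∨ k % ((3 : ℕ) : ℤ) = 1 ∨ k % ((3 : ℕ) : ℤ) = 2 := by omega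
      rcases hk3 with h1 | h1 | h1 <;> rw [h1]
      · exfalso
        rw [← hk, ← zpow_mod_orderOf, hcco, h1, zpow_zero] at hy
        have h2 : (1 : G) = g * c * g⁻¹ := congrArg Subtype.val hy
        exact hc1 (conj_eq_one_iff.1 h2.symm)
      · left
        rw [zpow_one, hcc]
      · right
        have hc2 : c⁻¹ = c * c := by
          apply inv_eq_of_mul_eq_one_left
          have : c ^ 3 = 1 := by rw [← hc3]; exact pow_orderOf_eq_one c
          calc c * c * c = c ^ 3 := by simp only [pow_succ, pow_zero, one_mul]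
            _ = 1 := this
        rw [hc2, hcc, zpow_two]
        rfl
    have hcard : 120 ≤ Nat.card (centralizer ({c} : Set G) ⊓ normalizer ((P : Subgroup G) : Set G) : Subgroup G) * 2 := by
      have h3 := Cfsg.Agent.Lib.SmallA879.card_le_of_fibers (G := normalizer ((P : Subgroup G) : Set G))
        ((centralizer ({c} : Set G) ⊓ normalizer ((P : Subgroup G) : Set G) : Subgroup G).subgroupOf (normalizer ((P : Subgroup G) : Set G)))
        (fun g => (g : G) * c * (g : G)⁻¹) ({c, c⁻¹} : Finset G) ?_ ?_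
      · have h4 : Nat.card ((centralizer ({c} : Set G) ⊓ normalizer ((P : Subgroup G) : Set G) : Subgroup G).subgroupOf (normalizer ((P : Subgroup G) : Set G))) =
            Nat.card (centralizer ({c} : Set G) ⊓ normalizer ((P : Subgroup G) : Set G) : Subgroup G) :=
          Nat.card_congr (Subgroup.subgroupOfEquivOfLe inf_le_right).toEquiv
        rw [h4, hN] at h3
        have h5 : ({c, c⁻¹} : Finset G).card ≤ 2 := Finset.card_le_two
        calc 120 ≤ _ := h3
          _ ≤ _ := Nat.mul_le_mul_left _ h5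
      · rintro ⟨g, hg⟩
        simp only [Finset.mem_insert, Finset.mem_singleton]
        exact hconj g hg
      · rintro ⟨g, hg⟩ ⟨g', hg'⟩ hgg
        have hgg' : g * c * g⁻¹ = g' * c * g'⁻¹ := hgg
        rw [Subgroup.mem_subgroupOf]
        have h1 : g⁻¹ * g' ∈ centralizer ({c} : Set G) := by
          rw [Subgroup.mem_centralizer_singleton_iff]
          calc g⁻¹ * g' * c = g⁻¹ * (g' * c * g'⁻¹) * g' := by group
            _ = g⁻¹ * (g * c * g⁻¹) * g' := by rw [hgg']
            _ = c * (g⁻¹ * g') := by group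
        have h2 : g⁻¹ * g' ∈ normalizer ((P : Subgroup G) : Set G) := mul_mem (inv_mem hg) hg'
        exact (Subgroup.mem_inf.2 ⟨h1, h2⟩ : g⁻¹ * g' ∈ (centralizer ({c} : Set G) ⊓ normalizer ((P : Subgroup G) : Set G) : Subgroup G))
    have hdvd : Nat.card (centralizer ({c} : Set G) ⊓ normalizer ((P : Subgroup G) : Set G) : Subgroup G) ∣ 120 := by
      rw [← hN]
      exact Subgroup.card_dvd_of_le inf_le_right
    obtain ⟨u, hu⟩ : ∃ u, u = Nat.card (centralizer ({c} : Set G) ⊓ normalizer ((P : Subgroup G) : Set G) : Subgroup G) := ⟨_, rfl⟩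
    rw [← hu] at hcard hdvd h6
    have hucases : u = 60 ∨ u = 120 := by
      have h1 : u ≤ 120 := Nat.le_of_dvd (by norm_num) hdvd
      obtain ⟨m, hm⟩ := hdvd
      have h2 : m ≤ 2 := by nlinarith
      interval_cases m <;> omega
    rcases hucases with rfl | rfl
    · -- index six in a larger normalizer
      have hnotle : ¬ normalizer ((P : Subgroup G) : Set G) ≤ centralizer ({c} : Set G) := by
        intro hle
        rw [inf_eq_right.2 hle, hN] at hu
        omega
      obtain ⟨g, hgN, hgc⟩ := SetLike.not_le_iff_exists.1 hnotle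
      have hgi : g * c * g⁻¹ = c⁻¹ := by
        rcases hconj g hgN with h1 | h1
        · exfalso
          apply hgc
          rw [Subgroup.mem_centralizer_singleton_iff]
          calc g * c = g * c * g⁻¹ * g := by group
            _ = c * g := by rw [h1]
        · exact h1
      have hle := centralizer_le_normalizer_zpowers c
      have hgN3 := mem_normalizer_zpowers_of_inv hgi
      have hlt : Nat.card (centralizer ({c} : Set G)) ≠ Nat.card (normalizer ((zpowers c : Subgroup G) : Set G)) := by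
        intro he
        have h1 := Subgroup.eq_of_le_of_card_ge hle (by rw [he])
        exact hgc (h1 ▸ hgN3)
      have hd := Subgroup.card_dvd_of_le hle
      rw [h6] at hd hlt
      have hgt : 480 < Nat.card (normalizer ((zpowers c : Subgroup G) : Set G)) := by
        obtain ⟨m, hm⟩ := hd
        rw [hm] at hlt ⊢
        have h2 : Nat.card (normalizer ((zpowers c : Subgroup G) : Set G)) ≠ 0 := Nat.card_pos.ne'
        rw [hm] at h2
        have : 2 ≤ m := by
          by_contra h3
          have : m ≤ 1 := by omega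
          interval_cases m <;> omega
        omega
      have htop := eq_top_of_card_gt h _ hgt
      have hnorm : (zpowers c : Subgroup G).Normal := Subgroup.normalizer_eq_top_iff.1 htop
      rcases hnorm.eq_bot_or_eq_top with hb | ht
      · exact hc1 (Subgroup.zpowers_eq_bot.1 hb)
      · have h1 := Nat.card_zpowers c
        rw [ht, hc3] at h1
        simp only [Subgroup.card_top, h] at h1
        omega
    · have hgt : 480 < Nat.card (centralizer ({c} : Set G)) := by
        rw [h6]
        norm_num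
      exact centralizer_singleton_ne_top hGn hc1 (eq_top_of_card_gt h _ hgt)
  · refine ⟨hC60, by rw [← hn₃]; exact hn4, ?_⟩
    have hNT : Nat.card (normalizer ((T : Subgroup (centralizer ((P : Subgroup G) : Set G))) : Set (centralizer ((P : Subgroup G) : Set G)))) = 15 := by
      rw [hk]
      rw [hn4, hC60] at hmul
      omega
    have hPle : (P : Subgroup G) ≤ centralizer ({c} : Set G) ⊓ centralizer ((P : Subgroup G) : Set G) := by
      intro u hu
      exact ⟨Subgroup.mem_centralizer_singleton_iff.2 (Subgroup.mem_centralizer_iff.1 hcC u hu), hPC hu⟩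
    have h5 : 5 ∣ Nat.card (centralizer ({c} : Set G) ⊓ centralizer ((P : Subgroup G) : Set G) : Subgroup G) := by
      have h0 := Subgroup.card_dvd_of_le hPle
      rwa [hP] at h0
    have h3 : 3 ∣ Nat.card (centralizer ({c} : Set G) ⊓ centralizer ((P : Subgroup G) : Set G) : Subgroup G) := by
      rw [← hc3]
      apply Subgroup.orderOf_dvd_natCard
      exact ⟨Subgroup.mem_centralizer_singleton_iff.2 rfl, hcC⟩
    have h15 : 15 ∣ Nat.card (centralizer ({c} : Set G) ⊓ centralizer ((P : Subgroup G) : Set G) : Subgroup G) :=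
      Nat.Coprime.mul_dvd_of_dvd_of_dvd (by norm_num : Nat.Coprime 3 5) h3 h5
    have hle : (centralizer ({c} : Set G) ⊓ centralizer ((P : Subgroup G) : Set G) : Subgroup G).subgroupOf (centralizer ((P : Subgroup G) : Set G)) ≤
        normalizer ((T : Subgroup (centralizer ((P : Subgroup G) : Set G))) : Set (centralizer ((P : Subgroup G) : Set G))) := by
      intro x hx
      rw [Subgroup.mem_subgroupOf] at hx
      rw [← hTz]
      apply centralizer_le_normalizer_zpowers
      rw [Subgroup.mem_centralizer_singleton_iff]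
      apply Subtype.ext
      rw [hcc]
      exact Subgroup.mem_centralizer_singleton_iff.1 hx.1
    have h8 := Subgroup.card_le_of_le hle
    rw [hNT] at h8
    have h9 : Nat.card ((centralizer ({c} : Set G) ⊓ centralizer ((P : Subgroup G) : Set G) : Subgroup G).subgroupOf (centralizer ((P : Subgroup G) : Set G))) =
        Nat.card (centralizer ({c} : Set G) ⊓ centralizer ((P : Subgroup G) : Set G) : Subgroup G) :=
      Nat.card_congr (Subgroup.subgroupOfEquivOfLe inf_le_right).toEquiv
    rw [h9] at h8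
    have h10 := Nat.le_of_dvd Nat.card_pos h15
    omega

lemma mem_normalizer_of_forall_conj {H : Subgroup G} {g : G} (hf : ∀ x ∈ H, g * x * g⁻¹ ∈ H)
    (hb : ∀ x ∈ H, g⁻¹ * x * g ∈ H) : g ∈ normalizer (H : Set G) := by
  rw [Subgroup.mem_normalizer_iff]
  intro x
  refine ⟨hf x, fun hx => ?_⟩
  have h1 := hb _ hx
  have h2 : g⁻¹ * (g * x * g⁻¹) * g = x := by group
  rwa [h2] at h1

/-- In a group of order 90, a subgroup of order 5 is normal. -/
theorem normal_five_of_card_ninety {Y : Type*} [Group Y] [Finite Y] (hY : Nat.card Y = 90) (A : Subgroup Y)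
    (hA : Nat.card A = 5) : A.Normal := by
  classical
  haveI : Fact (Nat.Prime 5) := ⟨by norm_num⟩
  haveI : Fact (Nat.Prime 2) := ⟨by norm_num⟩
  obtain ⟨s, hs⟩ := exists_prime_orderOf_dvd_card' (G := Y) 2 (by rw [hY]; norm_num)
  have hs2 : s ^ 2 = 1 := by rw [← hs]; exact pow_orderOf_eq_one s
  have hs1 : s ≠ 1 := by
    intro h1
    rw [h1, orderOf_one] at hs
    omega
  obtain ⟨H, hH, -⟩ := Cfsg.Agent.Lib.D8Index.exists_index_two (⊥ : Subgroup Y) 45 (by decide)
    (by rw [Subgroup.index_bot, hY]) s hs2 (by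
      intro g hg
      rw [Subgroup.mem_bot] at hg
      have h1 : s = 1 := by
        have h2 : s = g * (g⁻¹ * s * g) * g⁻¹ := by group
        rw [h2, hg]
        group
      exact hs1 h1)
  haveI hHn : H.Normal := Subgroup.normal_of_index_eq_two hH
  have hHc : Nat.card H = 45 := by
    have h1 := Subgroup.card_mul_index H
    rw [hH, hY] at h1
    omega
  have hsyl : Nat.card (Sylow 5 H) = 1 := by
    have h1 := card_sylow_dvd (G := H) (p := 5) (a := 1) (m := 9) (by rw [hHc]; norm_num) (by norm_num)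
    have h2 := card_sylow_mod (G := H) (p := 5)
    have h3 : Nat.card (Sylow 5 H) ≤ 9 := Nat.le_of_dvd (by norm_num) h1
    interval_cases hn : Nat.card (Sylow 5 H) <;> omega
  haveI hsub : Subsingleton (Sylow 5 H) := (Nat.card_eq_one_iff_unique.1 hsyl).1
  obtain ⟨S⟩ : Nonempty (Sylow 5 H) := inferInstance
  have hSc : Nat.card (S : Subgroup H) = 5 := by
    rw [sylow_card_of_card_eq (p := 5) (a := 1) (m := 9) (by rw [hHc]; norm_num) (by norm_num) S, pow_one]
  have hpow : ∀ x ∈ A, x ^ 5 = 1 := by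
    intro x hx
    have h1 : (⟨x, hx⟩ : A) ^ Nat.card A = 1 := pow_card_eq_one'
    rw [hA] at h1
    exact congrArg Subtype.val h1
  have hAH : A ≤ H := by
    intro x hx
    have h1 : x = (x ^ 3) ^ 2 := by
      rw [← pow_mul]
      have : x ^ (3 * 2) = x ^ 5 * x := by rw [← pow_succ]
      rw [this, hpow x hx, one_mul]
    rw [h1]
    exact Subgroup.sq_mem_of_index_two hH _
  constructor
  intro x hx g
  by_cases hx1 : x = 1
  · rw [hx1]
    simp [A.one_mem]
  obtain ⟨x', hx'⟩ : ∃ x' : H, x' = ⟨x, hAH hx⟩ := ⟨_, rfl⟩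
  have hx'1 : x' ≠ 1 := by
    intro h1
    rw [hx'] at h1
    exact hx1 (congrArg Subtype.val h1)
  have hx'5 : x' ^ 5 = 1 := by
    apply Subtype.ext
    rw [hx']
    exact hpow x hx
  have hx'o : orderOf x' = 5 := orderOf_eq_prime hx'5 hx'1
  obtain ⟨y', hy'⟩ : ∃ y' : H, y' = ⟨g * x * g⁻¹, hHn.conj_mem _ (hAH hx) g⟩ := ⟨_, rfl⟩
  have hy'5 : y' ^ 5 = 1 := by
    apply Subtype.ext
    rw [hy']
    change (g * x * g⁻¹) ^ 5 = 1
    rw [conj_pow, hpow x hx]
    group
  have hy'1 : y' ≠ 1 := by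
    intro h1
    rw [hy'] at h1
    have h2 : g * x * g⁻¹ = 1 := congrArg Subtype.val h1
    exact hx1 (conj_eq_one_iff.1 h2)
  have hy'o : orderOf y' = 5 := orderOf_eq_prime hy'5 hy'1
  obtain ⟨S₁, hS₁⟩ := exists_sylow_mem_of_orderOf hx'o
  obtain ⟨S₂, hS₂⟩ := exists_sylow_mem_of_orderOf hy'o
  rw [Subsingleton.elim S₁ S] at hS₁
  rw [Subsingleton.elim S₂ S] at hS₂
  have hz := zpowers_eq_of_mem_of_ne_one (by norm_num) hSc hS₁ hx'1
  rw [← hz] at hS₂
  obtain ⟨k, hk⟩ := Subgroup.mem_zpowers_iff.1 hS₂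
  have h5 : g * x * g⁻¹ = (y' : Y) := by rw [hy']
  rw [h5, ← hk]
  have h6 : ((x' ^ k : H) : Y) = x ^ k := by
    rw [Subgroup.coe_zpow, hx']
  rw [h6]
  exact zpow_mem hx k

theorem exists_r [IsSimpleGroup G] (h : Nat.card G = 4320) (P : Sylow 5 G)
    (hN : Nat.card (normalizer ((P : Subgroup G) : Set G)) = 120) {c : G}
    (hcC : c ∈ centralizer ((P : Subgroup G) : Set G))
    (hC60 : Nat.card (centralizer ((P : Subgroup G) : Set G)) = 60)
    (hL15 : Nat.card (centralizer ({c} : Set G) ⊓ centralizer ((P : Subgroup G) : Set G) : Subgroup G) = 15)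
    (h6 : Nat.card (centralizer ({c} : Set G)) = 6 * Nat.card (centralizer ({c} : Set G) ⊓ normalizer ((P : Subgroup G) : Set G) : Subgroup G)) :
    ∃ r, r ∈ normalizer ((P : Subgroup G) : Set G) ∧ r * c = c * r ∧ r * r = 1 ∧ r ≠ 1 ∧
      r ∉ centralizer ((P : Subgroup G) : Set G) := by
  classical
  haveI : Fact (Nat.Prime 5) := ⟨by norm_num⟩
  haveI : Fact (Nat.Prime 2) := ⟨by norm_num⟩
  have hP : Nat.card (P : Subgroup G) = 5 := by
    rw [sylow_card_of_card_eq (p := 5) (a := 1) (m := 864) (by rw [h]; norm_num) (by norm_num) P, pow_one]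
  haveI hcyc : IsCyclic (P : Subgroup G) := isCyclic_of_prime_card hP
  have hPC : (P : Subgroup G) ≤ centralizer ((P : Subgroup G) : Set G) := Subgroup.le_centralizer _
  have hCN : centralizer ((P : Subgroup G) : Set G) ≤ normalizer ((P : Subgroup G) : Set G) :=
    Subgroup.centralizer_le_normalizer _
  obtain ⟨u, hu⟩ : ∃ u, u = Nat.card (centralizer ({c} : Set G) ⊓ normalizer ((P : Subgroup G) : Set G) : Subgroup G) := ⟨_, rfl⟩
  have h15 : 15 ∣ u := by
    rw [hu, ← hL15]
    exact Subgroup.card_dvd_of_le (inf_le_inf_left _ hCN)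
  have hule : u ≤ 30 := by
    have h1 := Subgroup.relIndex_le_of_le_right (H := centralizer ({c} : Set G)) hCN Subgroup.index_ne_zero_of_finite
    have h2 := Cfsg.Agent.Lib.Small168.card_mul_relIndex (inf_le_right : (centralizer ({c} : Set G) ⊓ centralizer ((P : Subgroup G) : Set G) : Subgroup G) ≤ centralizer ((P : Subgroup G) : Set G))
    have h3 := Cfsg.Agent.Lib.Small168.card_mul_relIndex (inf_le_right : (centralizer ({c} : Set G) ⊓ normalizer ((P : Subgroup G) : Set G) : Subgroup G) ≤ normalizer ((P : Subgroup G) : Set G))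
    rw [Subgroup.inf_relIndex_right] at h2 h3
    rw [hL15, hC60] at h2
    rw [hN, ← hu] at h3
    have h4 : (centralizer ({c} : Set G)).relIndex (centralizer ((P : Subgroup G) : Set G)) = 4 := by omega
    rw [h4] at h1
    nlinarith
  have hucases : u = 15 ∨ u = 30 := by
    obtain ⟨m, hm⟩ := h15
    have h1 : m ≤ 2 := by omega
    have h0 : u ≠ 0 := by
      rw [hu]
      exact Nat.card_pos.ne'
    interval_cases m <;> omega
  rcases hucases with rfl | rfl
  · exfalso
    rw [← hu] at h6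
    have hY : Nat.card (centralizer ({c} : Set G)) = 90 := by omega
    have hPY : (P : Subgroup G) ≤ centralizer ({c} : Set G) := fun x hx =>
      Subgroup.mem_centralizer_singleton_iff.2 (Subgroup.mem_centralizer_iff.1 hcC x hx)
    have hA : Nat.card ((P : Subgroup G).subgroupOf (centralizer ({c} : Set G))) = 5 :=
      (Nat.card_congr (Subgroup.subgroupOfEquivOfLe hPY).toEquiv).trans hP
    have hnorm := normal_five_of_card_ninety hY _ hA
    have hle : centralizer ({c} : Set G) ≤ normalizer ((P : Subgroup G) : Set G) := by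
      intro g hg
      apply mem_normalizer_of_forall_conj
      · intro x hx
        have h1 := hnorm.conj_mem ⟨x, hPY hx⟩ (by rw [Subgroup.mem_subgroupOf]; exact hx) ⟨g, hg⟩
        rw [Subgroup.mem_subgroupOf] at h1
        exact h1
      · intro x hx
        have h1 := hnorm.conj_mem ⟨x, hPY hx⟩ (by rw [Subgroup.mem_subgroupOf]; exact hx) ⟨g, hg⟩⁻¹
        rw [Subgroup.mem_subgroupOf] at h1
        simpa using h1
    rw [inf_eq_left.2 hle, hY] at hu
    omega
  · obtain ⟨r0, hr0⟩ := exists_prime_orderOf_dvd_card' (G := (centralizer ({c} : Set G) ⊓ normalizer ((P : Subgroup G) : Set G) : Subgroup G)) 2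
      (by rw [← hu]; norm_num)
    obtain ⟨r, hrdef⟩ : ∃ r : G, r = (r0 : G) := ⟨_, rfl⟩
    have hro : orderOf r = 2 := by
      rw [hrdef, Subgroup.orderOf_coe]
      exact hr0
    have hr2 : r * r = 1 := by
      rw [← pow_two, ← hro]
      exact pow_orderOf_eq_one r
    have hr1 : r ≠ 1 := by
      intro h1
      rw [h1, orderOf_one] at hro
      omega
    have hrm : r ∈ (centralizer ({c} : Set G) ⊓ normalizer ((P : Subgroup G) : Set G) : Subgroup G) := by
      rw [hrdef]
      exact r0.2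
    refine ⟨r, hrm.2, Subgroup.mem_centralizer_singleton_iff.1 hrm.1, hr2, hr1, fun hrC => ?_⟩
    have h1 : orderOf r ∣ Nat.card (centralizer ({c} : Set G) ⊓ centralizer ((P : Subgroup G) : Set G) : Subgroup G) :=
      Subgroup.orderOf_dvd_natCard _ ⟨hrm.1, hrC⟩
    rw [hro, hL15] at h1
    omega

end Cfsg.Agent.Lib.O4320I79
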