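import Mathlib
import Cfsg.Agent.Lib.O4320I79a

/-!
# Groups of order 4320: `n₅ = 36`, the Klein four-group
-/

set_option autoImplicit false
set_option linter.style.haveILetI false

namespace Cfsg.Agent.Lib.O4320I79

open Subgroup Cfsg.Agent.Lib.SmallGroups2 Cfsg.Agent.Lib.TwoLocal Cfsg.Agent.Lib.TwoLocal2
  Cfsg.Agent.Lib.O4320Base79 Cfsg.Agent.Lib.O4320Abs79 Cfsg.Agent.Lib.O4320II79

variable {G : Type*} [Group G] [Finite G]

theorem exists_V (P : Subgroup G) (hP : Nat.card P = 5) [IsMulCommutative P]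
    (hC60 : Nat.card (centralizer (P : Set G)) = 60)
    (hn3 : Nat.card (Sylow 3 (centralizer (P : Set G))) = 4) :
    ∃ V : Subgroup G, Nat.card V = 4 ∧ ∀ x : G, x ∈ V ↔ x ∈ centralizer (P : Set G) ∧ x ^ 4 = 1 := by
  have hPC : P ≤ centralizer (P : Set G) := Subgroup.le_centralizer _
  have hA : Nat.card (P.subgroupOf (centralizer (P : Set G))) = 5 :=
    (Nat.card_congr (Subgroup.subgroupOfEquivOfLe hPC).toEquiv).trans hP
  obtain ⟨V₀, hV₀, hV₀m⟩ := exists_klein_abstract hC60 (P.subgroupOf (centralizer (P : Set G))) hA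
    (by
      intro y hy x
      apply Subtype.ext
      exact (Subgroup.mem_centralizer_iff.1 x.2 _ hy).symm) hn3
  refine ⟨V₀.map (centralizer (P : Set G)).subtype, ?_, ?_⟩
  · rw [← hV₀]
    exact Nat.card_congr (Subgroup.equivMapOfInjective V₀ _ (centralizer (P : Set G)).subtype_injective).symm.toEquiv
  · intro x
    constructor
    · rintro ⟨y, hy, rfl⟩
      refine ⟨y.2, ?_⟩
      have h1 := (hV₀m y).1 hy
      exact congrArg Subtype.val h1
    · rintro ⟨hx, hx4⟩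
      refine ⟨⟨x, hx⟩, (hV₀m _).2 ?_, rfl⟩
      apply Subtype.ext
      exact hx4

/-- Data on the Klein four-group. -/
structure Klein (P V : Subgroup G) (c v₁ v₂ v₃ : G) : Prop where
  hVC : ∀ x ∈ V, x ∈ centralizer (P : Set G)
  hVN : ∀ g ∈ normalizer (P : Set G), ∀ x ∈ V, g * x * g⁻¹ ∈ V
  hv₁V : v₁ ∈ V
  hv₁1 : v₁ ≠ 1
  hv₂ : v₂ = c * v₁ * c⁻¹
  hv₃ : v₃ = c⁻¹ * v₁ * c
  ne12 : v₁ ≠ v₂
  ne13 : v₁ ≠ v₃
  ne23 : v₂ ≠ v₃
  hcov : ∀ x ∈ V, x = 1 ∨ x = v₁ ∨ x = v₂ ∨ x = v₃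
  hinv : ∀ x ∈ V, x * x = 1
  hcomm : ∀ x ∈ V, ∀ y ∈ V, x * y = y * x

theorem klein_of (P V : Subgroup G) (hP : Nat.card P = 5) (hV4 : Nat.card V = 4)
    (hVm : ∀ x : G, x ∈ V ↔ x ∈ centralizer (P : Set G) ∧ x ^ 4 = 1) {c : G}
    (hcC : c ∈ centralizer (P : Set G)) (hc3 : orderOf c = 3)
    (hL15 : Nat.card (centralizer ({c} : Set G) ⊓ centralizer (P : Set G) : Subgroup G) = 15) :
    ∃ v₁ v₂ v₃ : G, Klein P V c v₁ v₂ v₃ := by
  classical
  haveI : Fact (Nat.Prime 2) := ⟨by norm_num⟩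
  have hVC : ∀ x ∈ V, x ∈ centralizer (P : Set G) := fun x hx => ((hVm x).1 hx).1
  have hVN : ∀ g ∈ normalizer (P : Set G), ∀ x ∈ V, g * x * g⁻¹ ∈ V := by
    intro g hg x hx
    rw [hVm]
    refine ⟨conj_mem_centralizer hg (hVC x hx), ?_⟩
    rw [conj_pow, ((hVm x).1 hx).2]
    group
  have hcN : c ∈ normalizer (P : Set G) := Subgroup.centralizer_le_normalizer _ hcC
  obtain ⟨v₁, hv₁V, hv₁c⟩ : ∃ v₁ ∈ V, c * v₁ * c⁻¹ ≠ v₁ := by
    by_contra hall
    push Not at hall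
    have hle : V ≤ centralizer ({c} : Set G) ⊓ centralizer (P : Set G) := by
      intro x hx
      have h2 : x ∈ centralizer ({c} : Set G) := by
        rw [Subgroup.mem_centralizer_singleton_iff]
        have h1 := hall x hx
        calc x * c = (c * x * c⁻¹) * c := by rw [h1]
          _ = c * x := by group
      exact Subgroup.mem_inf.2 ⟨h2, hVC x hx⟩
    have h1 := Subgroup.card_dvd_of_le hle
    rw [hV4, hL15] at h1
    omega
  have hc3' : c ^ 3 = 1 := by rw [← hc3]; exact pow_orderOf_eq_one c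
  have hcinv : c * c = c⁻¹ := by
    apply eq_inv_of_mul_eq_one_left
    calc c * c * c = c ^ 3 := by simp only [pow_succ, pow_zero, one_mul]
      _ = 1 := hc3'
  have hv₁1 : v₁ ≠ 1 := by
    rintro rfl
    apply hv₁c
    group
  obtain ⟨v₂, hv₂⟩ : ∃ v₂, v₂ = c * v₁ * c⁻¹ := ⟨_, rfl⟩
  obtain ⟨v₃, hv₃⟩ : ∃ v₃, v₃ = c⁻¹ * v₁ * c := ⟨_, rfl⟩
  have hv₂V : v₂ ∈ V := by rw [hv₂]; exact hVN c hcN v₁ hv₁V
  have hv₃V : v₃ ∈ V := by
    rw [hv₃]
    have := hVN c⁻¹ (inv_mem hcN) v₁ hv₁V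
    simpa using this
  have hinj : ∀ g u v : G, g * u * g⁻¹ = g * v * g⁻¹ → u = v := fun g u v h =>
    mul_left_cancel (mul_right_cancel h)
  have ne12 : v₁ ≠ v₂ := by
    rw [hv₂]
    exact fun he => hv₁c he.symm
  have ne13 : v₁ ≠ v₃ := by
    rw [hv₃]
    intro he
    apply hv₁c
    conv_lhs => rw [he]
    group
  have ne23 : v₂ ≠ v₃ := by
    rw [hv₂, hv₃]
    intro he
    apply ne13
    rw [hv₃]
    have h1 : c * (c * v₁ * c⁻¹) * c⁻¹ = c * (c⁻¹ * v₁ * c) * c⁻¹ := by rw [he]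
    have h2 : c * (c⁻¹ * v₁ * c) * c⁻¹ = v₁ := by group
    have h3 : c * (c * v₁ * c⁻¹) * c⁻¹ = (c * c) * v₁ * (c * c)⁻¹ := by group
    rw [h2, h3, hcinv, inv_inv] at h1
    exact h1.symm
  have hv₂1 : v₂ ≠ 1 := by
    rw [hv₂]
    intro he
    exact hv₁1 (conj_eq_one_iff.1 he)
  have hv₃1 : v₃ ≠ 1 := by
    rw [hv₃]
    intro he
    have h1 : c⁻¹ * v₁ * c⁻¹⁻¹ = 1 := by rw [inv_inv]; exact he
    exact hv₁1 (conj_eq_one_iff.1 h1)
  have hcov : ∀ x ∈ V, x = 1 ∨ x = v₁ ∨ x = v₂ ∨ x = v₃ := by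
    have hF : ({1, v₁, v₂, v₃} : Finset G).card = 4 := by
      rw [Finset.card_insert_of_notMem, Finset.card_insert_of_notMem, Finset.card_insert_of_notMem, Finset.card_singleton]
      · simpa using ne23
      · simp only [Finset.mem_insert, Finset.mem_singleton]
        rintro (h | h)
        · exact ne12 h
        · exact ne13 h
      · simp only [Finset.mem_insert, Finset.mem_singleton]
        rintro (h | h | h)
        · exact hv₁1 h.symm
        · exact hv₂1 h.symm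
        · exact hv₃1 h.symm
    have hsub : (↑({1, v₁, v₂, v₃} : Finset G) : Set G) ⊆ (V : Set G) := by
      intro s hs
      simp only [Finset.coe_insert, Finset.coe_singleton, Set.mem_insert_iff, Set.mem_singleton_iff] at hs
      rcases hs with rfl | rfl | rfl | rfl
      · exact V.one_mem
      · exact hv₁V
      · exact hv₂V
      · exact hv₃V
    have heq := Set.eq_of_subset_of_ncard_le hsub (by
      rw [Set.ncard_coe_finset, hF, ← Nat.card_coe_set_eq]
      exact hV4.le) (Set.toFinite _)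
    intro x hx
    have h1 : x ∈ (↑({1, v₁, v₂, v₃} : Finset G) : Set G) := by
      rw [heq]
      exact hx
    simpa using h1
  obtain ⟨s0, hs0⟩ := exists_prime_orderOf_dvd_card' (G := V) 2 (by rw [hV4]; norm_num)
  have hs : ((s0 : V) : G) * (s0 : G) = 1 := by
    have h1 : orderOf ((s0 : V) : G) = 2 := by
      rw [Subgroup.orderOf_coe]
      exact hs0
    rw [← pow_two, ← h1]
    exact pow_orderOf_eq_one _
  have hs01 : ((s0 : V) : G) ≠ 1 := by
    intro h1
    have h2 : s0 = 1 := Subtype.ext h1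
    rw [h2, orderOf_one] at hs0
    omega
  have hv₁2 : v₁ * v₁ = 1 := by
    rcases hcov _ s0.2 with h1 | h1 | h1 | h1
    · exact absurd h1 hs01
    · rw [h1] at hs
      exact hs
    · rw [h1, hv₂] at hs
      have h2 : c * v₁ * c⁻¹ * (c * v₁ * c⁻¹) = c * (v₁ * v₁) * c⁻¹ := by group
      rw [h2] at hs
      exact conj_eq_one_iff.1 hs
    · rw [h1, hv₃] at hs
      have h2 : c⁻¹ * v₁ * c * (c⁻¹ * v₁ * c) = c⁻¹ * (v₁ * v₁) * c⁻¹⁻¹ := by group
      rw [h2] at hs
      exact conj_eq_one_iff.1 hs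
  have hinv : ∀ x ∈ V, x * x = 1 := by
    intro x hx
    rcases hcov x hx with rfl | rfl | rfl | rfl
    · simp
    · exact hv₁2
    · rw [hv₂]
      calc c * v₁ * c⁻¹ * (c * v₁ * c⁻¹) = c * (v₁ * v₁) * c⁻¹ := by group
        _ = 1 := by rw [hv₁2]; group
    · rw [hv₃]
      calc c⁻¹ * v₁ * c * (c⁻¹ * v₁ * c) = c⁻¹ * (v₁ * v₁) * c := by group
        _ = 1 := by rw [hv₁2]; group
  have hcomm : ∀ x ∈ V, ∀ y ∈ V, x * y = y * x := by
    intro x hx y hy
    have h0 : ∀ z ∈ V, z⁻¹ = z := fun z hz => inv_eq_of_mul_eq_one_left (hinv z hz)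
    have h1 := h0 _ (V.mul_mem hx hy)
    rw [mul_inv_rev, h0 x hx, h0 y hy] at h1
    exact h1.symm
  exact ⟨v₁, v₂, v₃, hVC, hVN, hv₁V, hv₁1, hv₂, hv₃, ne12, ne13, ne23, hcov, hinv, hcomm⟩

section Klein

variable {P V : Subgroup G} {c v₁ v₂ v₃ : G}

lemma Klein.table (k : Klein P V c v₁ v₂ v₃) (hc3 : c ^ 3 = 1) :
    c * v₁ * c⁻¹ = v₂ ∧ c * v₂ * c⁻¹ = v₃ ∧ c * v₃ * c⁻¹ = v₁ ∧
    c⁻¹ * v₁ * c = v₃ ∧ c⁻¹ * v₂ * c = v₁ ∧ c⁻¹ * v₃ * c = v₂ := by
  have hcinv : c * c = c⁻¹ := by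
    apply eq_inv_of_mul_eq_one_left
    calc c * c * c = c ^ 3 := by simp only [pow_succ, pow_zero, one_mul]
      _ = 1 := hc3
  have h2 : c * v₂ * c⁻¹ = v₃ := by
    rw [k.hv₂, k.hv₃]
    calc c * (c * v₁ * c⁻¹) * c⁻¹ = (c * c) * v₁ * (c * c)⁻¹ := by group
      _ = c⁻¹ * v₁ * c := by rw [hcinv, inv_inv]
  have h3 : c⁻¹ * v₃ * c = v₂ := by
    rw [← h2]
    group
  refine ⟨k.hv₂.symm, h2, ?_, k.hv₃.symm, ?_, h3⟩
  · rw [k.hv₃]; group
  · rw [k.hv₂]; group

lemma Klein.r_comm (k : Klein P V c v₁ v₂ v₃) (hc3 : c ^ 3 = 1) {r : G} (hr : r ∈ normalizer (P : Set G))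
    (hrc : r * c = c * r) (hr2 : r * r = 1) : ∀ x ∈ V, r * x = x * r := by
  obtain ⟨t12, t23, t31, t13, t21, t32⟩ := k.table hc3
  have hrinv : r⁻¹ = r := inv_eq_of_mul_eq_one_left hr2
  have hconj : ∀ x, r * (c * x * c⁻¹) * r⁻¹ = c * (r * x * r⁻¹) * c⁻¹ := by
    intro x
    have h1 : r⁻¹ * c⁻¹ = c⁻¹ * r⁻¹ := by
      rw [← mul_inv_rev, ← mul_inv_rev, hrc]
    calc r * (c * x * c⁻¹) * r⁻¹ = (r * c) * x * (c⁻¹ * r⁻¹) := by group
      _ = (c * r) * x * (r⁻¹ * c⁻¹) := by rw [hrc, h1]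
      _ = c * (r * x * r⁻¹) * c⁻¹ := by group
  have hv := k.hVN r hr v₁ k.hv₁V
  have hback : r * (r * v₁ * r⁻¹) * r⁻¹ = v₁ := by
    calc r * (r * v₁ * r⁻¹) * r⁻¹ = (r * r) * v₁ * (r⁻¹ * r⁻¹) := by group
      _ = v₁ := by rw [hrinv, hr2]; group
  have hfix : r * v₁ * r⁻¹ = v₁ := by
    rcases k.hcov _ hv with h1 | h1 | h1 | h1
    · exact absurd (conj_eq_one_iff.1 h1) k.hv₁1
    · exact h1
    · exfalso
      apply k.ne13
      rw [h1] at hback
      rw [← t12, hconj, h1, t23] at hback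
      exact hback.symm
    · exfalso
      apply k.ne12
      rw [h1] at hback
      have h2 : r * (c⁻¹ * v₁ * c) * r⁻¹ = c⁻¹ * (r * v₁ * r⁻¹) * c := by
        have h3 : r * c⁻¹ = c⁻¹ * r := by
          rw [mul_inv_eq_iff_eq_mul, mul_assoc, hrc, ← mul_assoc, inv_mul_cancel, one_mul]
        have h4 : c * r⁻¹ = r⁻¹ * c := by
          rw [mul_inv_eq_iff_eq_mul, mul_assoc, ← hrc, ← mul_assoc, inv_mul_cancel, one_mul]
        calc r * (c⁻¹ * v₁ * c) * r⁻¹ = (r * c⁻¹) * v₁ * (c * r⁻¹) := by group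
          _ = (c⁻¹ * r) * v₁ * (r⁻¹ * c) := by rw [h3, h4]
          _ = c⁻¹ * (r * v₁ * r⁻¹) * c := by group
      rw [← t13, h2, h1, t32] at hback
      exact hback.symm
  have hc12 : r * v₁ = v₁ * r := by
    calc r * v₁ = r * v₁ * r⁻¹ * r := by group
      _ = v₁ * r := by rw [hfix]
  have hfix2 : r * v₂ * r⁻¹ = v₂ := by
    rw [← t12, hconj, hfix]
  have hfix3 : r * v₃ * r⁻¹ = v₃ := by
    rw [← t23, hconj, hfix2]
  intro x hx
  rcases k.hcov x hx with h1 | h1 | h1 | h1 <;> rw [h1]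
  · simp
  · exact hc12
  · calc r * v₂ = r * v₂ * r⁻¹ * r := by group
      _ = v₂ * r := by rw [hfix2]
  · calc r * v₃ = r * v₃ * r⁻¹ * r := by group
      _ = v₃ * r := by rw [hfix3]

theorem Klein.D_facts (k : Klein P V c v₁ v₂ v₃) (hc3 : c ^ 3 = 1) (hcC : c ∈ centralizer (P : Set G))
    (hP : Nat.card P = 5) [IsMulCommutative P] (hN : Nat.card (normalizer (P : Set G)) = 120) (hV4 : Nat.card V = 4)
    {r : G} (hr : r ∈ normalizer (P : Set G)) (hrc : r * c = c * r) (hr2 : r * r = 1)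
    (hrC : r ∉ centralizer (P : Set G)) :
    Nat.card (normalizer (P : Set G) ⊓ centralizer ({v₁} : Set G) : Subgroup G) = 40 ∧
    40 ≤ Nat.card (normalizer (P : Set G) ⊓ centralizer (V : Set G) : Subgroup G) ∧
    (∀ g ∈ normalizer (P : Set G), g * v₁ = v₁ * g → ∀ x ∈ V, g * x = x * g) := by
  classical
  obtain ⟨t12, t23, t31, t13, t21, t32⟩ := k.table hc3
  have hcN : c ∈ normalizer (P : Set G) := Subgroup.centralizer_le_normalizer _ hcC
  have hPC : P ≤ centralizer (P : Set G) := Subgroup.le_centralizer _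
  have hDle : (normalizer (P : Set G) ⊓ centralizer (V : Set G) : Subgroup G) ≤
      normalizer (P : Set G) ⊓ centralizer ({v₁} : Set G) := by
    refine inf_le_inf_left _ ?_
    intro g hg
    rw [Subgroup.mem_centralizer_singleton_iff]
    exact (Subgroup.mem_centralizer_iff.1 hg v₁ k.hv₁V).symm
  have h1 : Nat.card (normalizer (P : Set G) ⊓ centralizer ({v₁} : Set G) : Subgroup G) ≤ 40 := by
    have hidx : 3 ≤ ((normalizer (P : Set G) ⊓ centralizer ({v₁} : Set G) : Subgroup G).subgroupOf (normalizer (P : Set G))).index := by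
      have hS := index_ge_of_images (G := normalizer (P : Set G))
        ((normalizer (P : Set G) ⊓ centralizer ({v₁} : Set G) : Subgroup G).subgroupOf (normalizer (P : Set G)))
        (fun g => (g : G) * v₁ * (g : G)⁻¹) ({v₁, v₂, v₃} : Finset G) ?_ ?_
      · have hc : ({v₁, v₂, v₃} : Finset G).card = 3 := by
          rw [Finset.card_insert_of_notMem, Finset.card_insert_of_notMem, Finset.card_singleton]
          · simpa using k.ne23
          · simp only [Finset.mem_insert, Finset.mem_singleton]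
            rintro (h | h)
            · exact k.ne12 h
            · exact k.ne13 h
        rwa [hc] at hS
      · intro b hb
        simp only [Finset.mem_insert, Finset.mem_singleton] at hb
        rcases hb with hb | hb | hb <;> rw [hb]
        · exact ⟨1, by simp⟩
        · exact ⟨⟨c, hcN⟩, t12⟩
        · exact ⟨⟨c, hcN⟩⁻¹, by simpa using t13⟩
      · rintro ⟨g, hg⟩ ⟨g', hg'⟩ hgg
        rw [Subgroup.mem_subgroupOf] at hgg
        have h1 : g⁻¹ * g' ∈ centralizer ({v₁} : Set G) := hgg.2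
        rw [Subgroup.mem_centralizer_singleton_iff] at h1
        exact conj_eq_of_comm h1
    have h5 := Subgroup.card_mul_index ((normalizer (P : Set G) ⊓ centralizer ({v₁} : Set G) : Subgroup G).subgroupOf (normalizer (P : Set G)))
    have h4 : Nat.card ((normalizer (P : Set G) ⊓ centralizer ({v₁} : Set G) : Subgroup G).subgroupOf (normalizer (P : Set G))) =
        Nat.card (normalizer (P : Set G) ⊓ centralizer ({v₁} : Set G) : Subgroup G) :=
      Nat.card_congr (Subgroup.subgroupOfEquivOfLe inf_le_left).toEquiv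
    rw [h4, hN] at h5
    nlinarith
  have h2 : 40 ≤ Nat.card (normalizer (P : Set G) ⊓ centralizer (V : Set G) : Subgroup G) := by
    have hP0 : P ≤ (normalizer (P : Set G) ⊓ centralizer (V : Set G) : Subgroup G) ⊓ centralizer (P : Set G) := by
      intro x hx
      refine Subgroup.mem_inf.2 ⟨Subgroup.mem_inf.2 ⟨Subgroup.le_normalizer hx, ?_⟩, hPC hx⟩
      rw [Subgroup.mem_centralizer_iff]
      intro w hw
      exact (Subgroup.mem_centralizer_iff.1 (k.hVC w hw) x hx).symm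
    have hV0 : V ≤ (normalizer (P : Set G) ⊓ centralizer (V : Set G) : Subgroup G) ⊓ centralizer (P : Set G) := by
      intro x hx
      refine Subgroup.mem_inf.2 ⟨Subgroup.mem_inf.2 ⟨Subgroup.centralizer_le_normalizer _ (k.hVC x hx), ?_⟩, k.hVC x hx⟩
      rw [Subgroup.mem_centralizer_iff]
      intro w hw
      exact k.hcomm w hw x hx
    have h5 := Subgroup.card_dvd_of_le hP0
    have h4 := Subgroup.card_dvd_of_le hV0
    rw [hP] at h5
    rw [hV4] at h4
    have h20 := Nat.Coprime.mul_dvd_of_dvd_of_dvd (by norm_num : Nat.Coprime 4 5) h4 h5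
    have hrD : r ∈ (normalizer (P : Set G) ⊓ centralizer (V : Set G) : Subgroup G) := by
      refine Subgroup.mem_inf.2 ⟨hr, ?_⟩
      rw [Subgroup.mem_centralizer_iff]
      intro w hw
      exact (k.r_comm hc3 hr hrc hr2 w hw).symm
    have hne : Nat.card ((normalizer (P : Set G) ⊓ centralizer (V : Set G) : Subgroup G) ⊓ centralizer (P : Set G) : Subgroup G) ≠
        Nat.card (normalizer (P : Set G) ⊓ centralizer (V : Set G) : Subgroup G) := by
      intro he
      have h6 := Subgroup.eq_of_le_of_card_ge (inf_le_left : (normalizer (P : Set G) ⊓ centralizer (V : Set G) : Subgroup G) ⊓ centralizer (P : Set G) ≤ _) (by rw [he])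
      rw [← h6] at hrD
      exact hrC (Subgroup.mem_inf.1 hrD).2
    have hdvd := Subgroup.card_dvd_of_le (inf_le_left : (normalizer (P : Set G) ⊓ centralizer (V : Set G) : Subgroup G) ⊓ centralizer (P : Set G) ≤ _)
    obtain ⟨m, hm⟩ := hdvd
    obtain ⟨q, hq⟩ := h20
    have hpos : 0 < Nat.card (normalizer (P : Set G) ⊓ centralizer (V : Set G) : Subgroup G) := Nat.card_pos
    have hqpos : 0 < Nat.card ((normalizer (P : Set G) ⊓ centralizer (V : Set G) : Subgroup G) ⊓ centralizer (P : Set G) : Subgroup G) := Nat.card_pos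
    rw [hm] at hpos hne ⊢
    have hm2 : 2 ≤ m := by
      by_contra hlt
      have : m ≤ 1 := by omega
      interval_cases m <;> omega
    rw [hq] at hqpos ⊢
    have hq1 : 1 ≤ q := by omega
    have : 4 * 5 * q * 2 ≤ 4 * 5 * q * m := Nat.mul_le_mul_left _ hm2
    nlinarith
  have heq := Subgroup.eq_of_le_of_card_ge hDle (by
    calc _ ≤ 40 := h1
      _ ≤ _ := h2)
  refine ⟨le_antisymm h1 (by rw [← heq]; exact h2), h2, ?_⟩
  intro g hg hgv x hx
  have h3 : g ∈ (normalizer (P : Set G) ⊓ centralizer (V : Set G) : Subgroup G) := by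
    rw [heq]
    exact Subgroup.mem_inf.2 ⟨hg, Subgroup.mem_centralizer_singleton_iff.2 hgv⟩
  exact (Subgroup.mem_centralizer_iff.1 (Subgroup.mem_inf.1 h3).2 x hx).symm

lemma Klein.inv_comm (k : Klein P V c v₁ v₂ v₃) (hc3 : c ^ 3 = 1) (hcN : c ∈ normalizer (P : Set G))
    (hcomm : ∀ g ∈ normalizer (P : Set G), g * v₁ = v₁ * g → ∀ x ∈ V, g * x = x * g)
    {y : G} (hy : y ∈ normalizer (P : Set G)) (hy2 : y * y = 1) : y * v₁ = v₁ * y := by
  obtain ⟨t12, t23, t31, t13, t21, t32⟩ := k.table hc3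
  have hyinv : y⁻¹ = y := inv_eq_of_mul_eq_one_left hy2
  have hv := k.hVN y hy v₁ k.hv₁V
  have hback : y * (y * v₁ * y⁻¹) * y⁻¹ = v₁ := by
    calc y * (y * v₁ * y⁻¹) * y⁻¹ = (y * y) * v₁ * (y⁻¹ * y⁻¹) := by group
      _ = v₁ := by rw [hyinv, hy2]; group
  have hfin : y * v₁ * y⁻¹ = v₁ := by
    rcases k.hcov _ hv with h1 | h1 | h1 | h1
    · exact absurd (conj_eq_one_iff.1 h1) k.hv₁1
    · exact h1
    · exfalso
      -- `y = c * d` with `d` centralizing `V`
      have hd : (c⁻¹ * y) * v₁ = v₁ * (c⁻¹ * y) := by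
        calc c⁻¹ * y * v₁ = c⁻¹ * (y * v₁ * y⁻¹) * y := by group
          _ = c⁻¹ * v₂ * y := by rw [h1]
          _ = (c⁻¹ * v₂ * c) * (c⁻¹ * y) := by group
          _ = v₁ * (c⁻¹ * y) := by rw [t21]
      have hd2 := hcomm _ (mul_mem (inv_mem hcN) hy) hd v₂ (by rw [k.hv₂]; exact k.hVN c hcN v₁ k.hv₁V)
      have h3 : y * v₂ * y⁻¹ = v₃ := by
        calc y * v₂ * y⁻¹ = c * ((c⁻¹ * y) * v₂) * y⁻¹ := by group
          _ = c * (v₂ * (c⁻¹ * y)) * y⁻¹ := by rw [hd2]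
          _ = c * v₂ * c⁻¹ := by group
          _ = v₃ := t23
      rw [h1, h3] at hback
      exact k.ne13 hback.symm
    · exfalso
      have hd : (c * y) * v₁ = v₁ * (c * y) := by
        calc c * y * v₁ = c * (y * v₁ * y⁻¹) * y := by group
          _ = c * v₃ * y := by rw [h1]
          _ = (c * v₃ * c⁻¹) * (c * y) := by group
          _ = v₁ * (c * y) := by rw [t31]
      have hd2 := hcomm _ (mul_mem hcN hy) hd v₃ (by
        rw [k.hv₃]
        have := k.hVN c⁻¹ (inv_mem hcN) v₁ k.hv₁V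
        simpa using this)
      have h3 : y * v₃ * y⁻¹ = v₂ := by
        calc y * v₃ * y⁻¹ = c⁻¹ * ((c * y) * v₃) * y⁻¹ := by group
          _ = c⁻¹ * (v₃ * (c * y)) * y⁻¹ := by rw [hd2]
          _ = c⁻¹ * v₃ * c := by group
          _ = v₂ := t32
      rw [h1, h3] at hback
      exact k.ne12 hback.symm
  calc y * v₁ = y * v₁ * y⁻¹ * y := by group
    _ = v₁ * y := by rw [hfin]

end Klein

end Cfsg.Agent.Lib.O4320I79
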