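import Mathlib
import Cfsg.Agent.Lib.O4320I79b

/-!
# Groups of order 4320: `n₅ = 36`, the end of the argument
-/

set_option autoImplicit false
set_option linter.style.haveILetI false

namespace Cfsg.Agent.Lib.O4320I79

open Subgroup Cfsg.Agent.Lib.SmallGroups2 Cfsg.Agent.Lib.TwoLocal Cfsg.Agent.Lib.TwoLocal2
  Cfsg.Agent.Lib.O4320Base79 Cfsg.Agent.Lib.O4320Abs79 Cfsg.Agent.Lib.O4320II79

variable {G : Type*} [Group G] [Finite G]

/-- A nontrivial element of a Sylow subgroup of order five does not normalize another Sylow subgroup. -/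
lemma eq_one_of_mem_of_normalizer {A B : Sylow 5 G} (hAB : A ≠ B) (hA : Nat.card (A : Subgroup G) = 5) {y : G}
    (hy : y ∈ (A : Subgroup G)) (hyn : y ∈ normalizer ((B : Subgroup G) : Set G)) : y = 1 := by
  haveI : Fact (Nat.Prime 5) := ⟨by norm_num⟩
  by_contra hy1
  have hz := zpowers_eq_of_mem_of_ne_one (by norm_num) hA hy hy1
  apply hAB
  apply sylow_eq_of_le_normalizer
  rw [← hz, Subgroup.zpowers_le]
  exact hyn

theorem contra_n6 [IsSimpleGroup G] (h : Nat.card G = 4320) (P : Sylow 5 G) {V : Subgroup G} {c v₁ v₂ v₃ : G}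
    (k : Klein (P : Subgroup G) V c v₁ v₂ v₃) (hc3 : c ^ 3 = 1)
    (hcC : c ∈ centralizer ((P : Subgroup G) : Set G)) (hV4 : Nat.card V = 4)
    (hD : 40 ≤ Nat.card (normalizer ((P : Subgroup G) : Set G) ⊓ centralizer (V : Set G) : Subgroup G))
    (hH : Nat.card (centralizer ({v₁} : Set G)) = 240)
    (hHN : Nat.card (centralizer ({v₁} : Set G) ⊓ normalizer ((P : Subgroup G) : Set G) : Subgroup G) = 40) : False := by
  classical
  haveI : Fact (Nat.Prime 5) := ⟨by norm_num⟩
  have hGn : ¬ IsMulCommutative G := not_isMulCommutative_of_not_prime (by rw [h]; norm_num)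
  have hSc : ∀ S : Sylow 5 G, Nat.card (S : Subgroup G) = 5 := fun S => by
    rw [sylow_card_of_card_eq (p := 5) (a := 1) (m := 864) (by rw [h]; norm_num) (by norm_num) S, pow_one]
  have hP := hSc P
  obtain ⟨t12, t23, t31, t13, t21, t32⟩ := k.table hc3
  have hVN : ∀ w ∈ V, w ∈ normalizer ((P : Subgroup G) : Set G) := fun w hw =>
    Subgroup.centralizer_le_normalizer _ (k.hVC w hw)
  have hVH : ∀ w ∈ V, w ∈ centralizer ({v₁} : Set G) := fun w hw =>
    Subgroup.mem_centralizer_singleton_iff.2 (k.hcomm w hw v₁ k.hv₁V)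
  have hPH : (P : Subgroup G) ≤ centralizer ({v₁} : Set G) := fun x hx =>
    Subgroup.mem_centralizer_singleton_iff.2 ((Subgroup.mem_centralizer_iff.1 (k.hVC v₁ k.hv₁V)) x hx)
  -- the orbit of `P`
  obtain ⟨O, hOdef⟩ : ∃ O : Set (Sylow 5 G), O = MulAction.orbit (centralizer ({v₁} : Set G)) P := ⟨_, rfl⟩
  have hOP : P ∈ O := by
    rw [hOdef]
    exact MulAction.mem_orbit_self P
  have hOsmul : ∀ y ∈ centralizer ({v₁} : Set G), ∀ Q ∈ O, y • Q ∈ O := by
    intro y hy Q hQ
    rw [hOdef] at hQ ⊢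
    obtain ⟨a, ha⟩ := hQ
    have ha' : a • P = Q := ha
    refine ⟨⟨y, hy⟩ * a, ?_⟩
    change ((⟨y, hy⟩ : centralizer ({v₁} : Set G)) * a) • P = y • Q
    rw [mul_smul, ha']
    rfl
  have hOcard : Nat.card O = 6 := by
    have hmul : Nat.card (MulAction.orbit (centralizer ({v₁} : Set G)) P) * Nat.card (MulAction.stabilizer (centralizer ({v₁} : Set G)) P) = 240 := by
      rw [← Nat.card_prod, Nat.card_congr (MulAction.orbitProdStabilizerEquivGroup _ P), hH]
    have hst : Nat.card (MulAction.stabilizer (centralizer ({v₁} : Set G)) P) = 40 := by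
      have h1 : MulAction.stabilizer (centralizer ({v₁} : Set G)) P =
          (centralizer ({v₁} : Set G) ⊓ normalizer ((P : Subgroup G) : Set G) : Subgroup G).subgroupOf (centralizer ({v₁} : Set G)) := by
        ext g
        rw [Subgroup.mem_subgroupOf, MulAction.mem_stabilizer_iff]
        constructor
        · intro hg
          have h2 : (g : G) • P = P := hg
          exact Subgroup.mem_inf.2 ⟨g.2, Sylow.smul_eq_iff_mem_normalizer.1 h2⟩
        · intro hg
          exact Sylow.smul_eq_iff_mem_normalizer.2 (Subgroup.mem_inf.1 hg).2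
      rw [h1, ← hHN]
      exact Nat.card_congr (Subgroup.subgroupOfEquivOfLe inf_le_left).toEquiv
    rw [hst, ← hOdef] at hmul
    omega
  have hOdiff : Nat.card ↥(O \ {P}) = 5 := by
    rw [Nat.card_coe_set_eq, Set.ncard_diff_singleton_of_mem hOP, ← Nat.card_coe_set_eq, hOcard]
  -- `V` normalizes every member of the orbit
  have hVnorm : ∀ Q ∈ O, ∀ w ∈ V, w • Q = Q := by
    intro Q hQ w hw
    by_cases hQP : Q = P
    · rw [hQP]
      exact Sylow.smul_eq_iff_mem_normalizer.2 (hVN w hw)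
    · have hne : ∀ y ∈ normalizer ((P : Subgroup G) : Set G), y • Q ≠ P := by
        intro y hy he
        apply hQP
        have h1 : Q = y⁻¹ • P := by rw [← he, inv_smul_smul]
        rw [h1]
        exact Sylow.smul_eq_iff_mem_normalizer.2 (inv_mem hy)
      let f : ↥(P : Subgroup G) → ↥(O \ {P}) := fun y => ⟨(y : G) • Q, hOsmul _ (hPH y.2) Q hQ,
        fun he => hne _ (Subgroup.le_normalizer y.2) he⟩
      have hf : Function.Injective f := by
        rintro ⟨y, hy⟩ ⟨y', hy'⟩ hff
        have h1 : y • Q = y' • Q := congrArg Subtype.val hff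
        have h2 : (y⁻¹ * y') • Q = Q := by
          rw [mul_smul, ← h1, inv_smul_smul]
        have h3 := eq_one_of_mem_of_normalizer (A := P) (B := Q) (fun he => hQP he.symm) hP
          (mul_mem (inv_mem hy) hy') (Sylow.smul_eq_iff_mem_normalizer.1 h2)
        apply Subtype.ext
        exact inv_mul_eq_one.1 h3
      have hbij := Function.Injective.bijective_of_nat_card_le hf (by rw [hOdiff, hP])
      obtain ⟨⟨y, hy⟩, hye⟩ := hbij.2 ⟨w • Q, hOsmul _ (hVH w hw) Q hQ, fun he => hne _ (hVN w hw) he⟩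
      have h1 : y • Q = w • Q := congrArg Subtype.val hye
      have h2 : (y⁻¹ * w) • Q = Q := by
        rw [mul_smul, ← h1, inv_smul_smul]
      have h3 : y⁻¹ * w ∈ normalizer ((Q : Subgroup G) : Set G) := Sylow.smul_eq_iff_mem_normalizer.1 h2
      have hcwy : w * y⁻¹ = y⁻¹ * w := by
        have := Subgroup.mem_centralizer_iff.1 (k.hVC w hw) _ (inv_mem hy)
        exact this.symm
      have h4 : y⁻¹ * y⁻¹ = (y⁻¹ * w) * (y⁻¹ * w) := by
        calc y⁻¹ * y⁻¹ = y⁻¹ * y⁻¹ * (w * w) := by rw [k.hinv w hw, mul_one]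
          _ = y⁻¹ * (y⁻¹ * w) * w := by group
          _ = y⁻¹ * (w * y⁻¹) * w := by rw [hcwy]
          _ = (y⁻¹ * w) * (y⁻¹ * w) := by group
      have h5 : y⁻¹ * y⁻¹ ∈ normalizer ((Q : Subgroup G) : Set G) := by
        rw [h4]
        exact mul_mem h3 h3
      have h6 := eq_one_of_mem_of_normalizer (A := P) (B := Q) (fun he => hQP he.symm) hP
        (mul_mem (inv_mem hy) (inv_mem hy)) h5
      have h7 := eq_one_of_sq_of_card_five hP (inv_mem hy) h6
      have h8 : y = 1 := inv_eq_one.1 h7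
      rw [← h1, h8, one_smul]
  -- an element of the centralizer of `V` outside the normalizer
  obtain ⟨g, hgH, hgN⟩ : ∃ g ∈ centralizer ({v₁} : Set G), g ∉ normalizer ((P : Subgroup G) : Set G) := by
    by_contra hall
    push Not at hall
    rw [inf_eq_left.2 (fun x hx => hall x hx), hH] at hHN
    omega
  obtain ⟨Q, hQdef⟩ : ∃ Q : Sylow 5 G, Q = g • P := ⟨_, rfl⟩
  have hQO : Q ∈ O := by
    rw [hQdef]
    exact hOsmul g hgH P hOP
  have hQP : Q ≠ P := by
    intro he
    rw [hQdef] at he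
    exact hgN (Sylow.smul_eq_iff_mem_normalizer.1 he)
  have hQH : ∀ u ∈ (Q : Subgroup G), u ∈ centralizer ({v₁} : Set G) := by
    intro u hu
    rw [hQdef] at hu
    have h1 := hPH (mem_smul_sylow_iff.1 hu)
    have h2 : u = g * (g⁻¹ * u * g) * g⁻¹ := by group
    rw [h2]
    exact mul_mem (mul_mem hgH h1) (inv_mem hgH)
  have hQcomm : ∀ u ∈ (Q : Subgroup G), ∀ w ∈ V, u * w = w * u := by
    intro u hu w hw
    have huH := hQH u hu
    have h1 := hVnorm _ (hOsmul _ (inv_mem huH) P hOP) w hw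
    have h2 : (u * w * u⁻¹) • P = P := by
      rw [mul_smul, mul_smul, h1, smul_inv_smul]
    have h3 : u * w * u⁻¹ ∈ normalizer ((P : Subgroup G) : Set G) := Sylow.smul_eq_iff_mem_normalizer.1 h2
    have h4 : u * w * u⁻¹ * w⁻¹ ∈ normalizer ((P : Subgroup G) : Set G) := mul_mem h3 (inv_mem (hVN w hw))
    have h5 : w ∈ normalizer ((Q : Subgroup G) : Set G) := Sylow.smul_eq_iff_mem_normalizer.1 (hVnorm Q hQO w hw)
    have h6 : w * u⁻¹ * w⁻¹ ∈ (Q : Subgroup G) := (mem_normalizer_iff.1 h5 u⁻¹).1 (inv_mem hu)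
    have h7 : u * w * u⁻¹ * w⁻¹ ∈ (Q : Subgroup G) := by
      have h8 : u * w * u⁻¹ * w⁻¹ = u * (w * u⁻¹ * w⁻¹) := by group
      rw [h8]
      exact mul_mem hu h6
    have h9 := eq_one_of_mem_of_normalizer hQP (hSc Q) h7 h4
    calc u * w = u * w * u⁻¹ * w⁻¹ * (w * u) := by group
      _ = w * u := by rw [h9, one_mul]
  obtain ⟨u₀, hu₀Q, hu₀1⟩ : ∃ u₀ ∈ (Q : Subgroup G), u₀ ≠ 1 := by
    refine (Subgroup.bot_or_exists_ne_one (Q : Subgroup G)).resolve_left ?_
    intro hb
    have h1 := hSc Q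
    rw [hb] at h1
    simp at h1
  have hu₀N : u₀ ∉ normalizer ((P : Subgroup G) : Set G) := fun hn =>
    hu₀1 (eq_one_of_mem_of_normalizer hQP (hSc Q) hu₀Q hn)
  have hu₀Y : u₀ ∈ centralizer (V : Set G) := by
    rw [Subgroup.mem_centralizer_iff]
    intro w hw
    exact (hQcomm u₀ hu₀Q w hw).symm
  have hPY : (P : Subgroup G) ≤ centralizer (V : Set G) := by
    intro x hx
    rw [Subgroup.mem_centralizer_iff]
    intro w hw
    exact (Subgroup.mem_centralizer_iff.1 (k.hVC w hw) x hx).symm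
  -- the centralizer of `V` is large
  have hidx5 : 5 ≤ ((centralizer (V : Set G) ⊓ normalizer ((P : Subgroup G) : Set G) : Subgroup G).subgroupOf (centralizer (V : Set G))).index := by
    let F : ↥(P : Subgroup G) → ↥(centralizer (V : Set G)) ⧸ ((centralizer (V : Set G) ⊓ normalizer ((P : Subgroup G) : Set G) : Subgroup G).subgroupOf (centralizer (V : Set G))) :=
      fun y => (((⟨y.1, hPY y.2⟩ : centralizer (V : Set G)) * ⟨u₀, hu₀Y⟩ : centralizer (V : Set G)) : _)
    have hF : Function.Injective F := by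
      rintro ⟨y, hy⟩ ⟨y', hy'⟩ hff
      have h1 := QuotientGroup.eq.1 hff
      rw [Subgroup.mem_subgroupOf] at h1
      have h2 : u₀⁻¹ * y⁻¹ * y' * u₀ ∈ normalizer ((P : Subgroup G) : Set G) := by
        have h3 := (Subgroup.mem_inf.1 h1).2
        have h4 : ((((⟨y, hPY hy⟩ : centralizer (V : Set G)) * ⟨u₀, hu₀Y⟩ : centralizer (V : Set G))⁻¹ *
            ((⟨y', hPY hy'⟩ : centralizer (V : Set G)) * ⟨u₀, hu₀Y⟩) : centralizer (V : Set G)) : G) =
            u₀⁻¹ * y⁻¹ * y' * u₀ := by
          simp only [coe_mul, InvMemClass.coe_inv, mul_inv_rev]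
          group
        rwa [h4] at h3
      obtain ⟨z, hz⟩ : ∃ z, z = y⁻¹ * y' := ⟨_, rfl⟩
      have hzP : z ∈ (P : Subgroup G) := by
        rw [hz]
        exact mul_mem (inv_mem hy) hy'
      have h3 : u₀⁻¹ * z * u₀ ∈ normalizer ((P : Subgroup G) : Set G) := by
        rw [hz]
        have h4 : u₀⁻¹ * (y⁻¹ * y') * u₀ = u₀⁻¹ * y⁻¹ * y' * u₀ := by group
        rw [h4]
        exact h2
      have h5 : u₀⁻¹ * z * u₀ ∈ ((u₀⁻¹ • P : Sylow 5 G) : Subgroup G) := by
        rw [mem_smul_sylow_iff]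
        have h6 : (u₀⁻¹)⁻¹ * (u₀⁻¹ * z * u₀) * u₀⁻¹ = z := by group
        rw [h6]
        exact hzP
      have hne : u₀⁻¹ • P ≠ P := by
        intro he
        exact hu₀N (by
          have := inv_mem (Sylow.smul_eq_iff_mem_normalizer.1 he)
          simpa using this)
      have h6 := eq_one_of_mem_of_normalizer hne (hSc _) h5 h3
      have h7 : z = 1 := by
        have h8 : z = u₀ * (u₀⁻¹ * z * u₀) * u₀⁻¹ := by group
        rw [h8, h6]
        group
      have h8 : y = y' := by
        rw [h7] at hz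
        exact inv_mul_eq_one.1 hz.symm
      subst h8
      rfl
    have h1 := Nat.card_le_card_of_injective F hF
    rw [hP] at h1
    exact h1
  have hYcard : 200 ≤ Nat.card (centralizer (V : Set G)) := by
    have h5 := Subgroup.card_mul_index ((centralizer (V : Set G) ⊓ normalizer ((P : Subgroup G) : Set G) : Subgroup G).subgroupOf (centralizer (V : Set G)))
    have h4 : Nat.card ((centralizer (V : Set G) ⊓ normalizer ((P : Subgroup G) : Set G) : Subgroup G).subgroupOf (centralizer (V : Set G))) =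
        Nat.card (centralizer (V : Set G) ⊓ normalizer ((P : Subgroup G) : Set G) : Subgroup G) :=
      Nat.card_congr (Subgroup.subgroupOfEquivOfLe inf_le_left).toEquiv
    rw [h4] at h5
    have h6 : Nat.card (centralizer (V : Set G) ⊓ normalizer ((P : Subgroup G) : Set G) : Subgroup G) =
        Nat.card (normalizer ((P : Subgroup G) : Set G) ⊓ centralizer (V : Set G) : Subgroup G) := by rw [inf_comm]
    rw [h6] at h5
    rw [← h5]
    calc 200 = 40 * 5 := by norm_num
      _ ≤ _ := Nat.mul_le_mul hD hidx5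
  -- the normalizer of `V` is everything
  have hcN : c ∈ normalizer ((P : Subgroup G) : Set G) := Subgroup.centralizer_le_normalizer _ hcC
  have hcNV : c ∈ normalizer (V : Set G) := by
    apply mem_normalizer_of_forall_conj
    · exact fun x hx => k.hVN c hcN x hx
    · intro x hx
      have := k.hVN c⁻¹ (inv_mem hcN) x hx
      simpa using this
  have hidx3 : 3 ≤ ((centralizer (V : Set G)).subgroupOf (normalizer (V : Set G))).index := by
    have hS := index_ge_of_images (G := normalizer (V : Set G))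
      ((centralizer (V : Set G)).subgroupOf (normalizer (V : Set G)))
      (fun g => (g : G) * v₁ * (g : G)⁻¹) ({v₁, v₂, v₃} : Finset G) ?_ ?_
    · have hc : ({v₁, v₂, v₃} : Finset G).card = 3 := by
        rw [Finset.card_insert_of_notMem, Finset.card_insert_of_notMem, Finset.card_singleton]
        · simpa using k.ne23
        · simp only [Finset.mem_insert, Finset.mem_singleton]
          rintro (h | h)
          · exact k.ne12 h
          · exact k.ne13 h
      rwa [hc] at hS
    · intro b hb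
      simp only [Finset.mem_insert, Finset.mem_singleton] at hb
      rcases hb with hb | hb | hb <;> rw [hb]
      · exact ⟨1, by simp⟩
      · exact ⟨⟨c, hcNV⟩, t12⟩
      · exact ⟨⟨c, hcNV⟩⁻¹, by simpa using t13⟩
    · rintro ⟨g, hg⟩ ⟨g', hg'⟩ hgg
      rw [Subgroup.mem_subgroupOf] at hgg
      have h1 : g⁻¹ * g' ∈ centralizer (V : Set G) := hgg
      have h2 := Subgroup.mem_centralizer_iff.1 h1 v₁ k.hv₁V
      exact conj_eq_of_comm h2.symm
  have hNVcard : 480 < Nat.card (normalizer (V : Set G)) := by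
    have h5 := Subgroup.card_mul_index ((centralizer (V : Set G)).subgroupOf (normalizer (V : Set G)))
    have h4 : Nat.card ((centralizer (V : Set G)).subgroupOf (normalizer (V : Set G))) = Nat.card (centralizer (V : Set G)) :=
      Nat.card_congr (Subgroup.subgroupOfEquivOfLe (Subgroup.centralizer_le_normalizer _)).toEquiv
    rw [h4] at h5
    rw [← h5]
    calc 480 < 200 * 3 := by norm_num
      _ ≤ _ := Nat.mul_le_mul hYcard hidx3
  have htop := eq_top_of_card_gt h _ hNVcard
  have hnorm : V.Normal := Subgroup.normalizer_eq_top_iff.1 htop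
  rcases hnorm.eq_bot_or_eq_top with hb | ht
  · rw [hb] at hV4
    simp at hV4
  · rw [ht, Subgroup.card_top, h] at hV4
    omega

theorem case_one [IsSimpleGroup G] (h : Nat.card G = 4320) (P : Sylow 5 G)
    (hN : Nat.card (normalizer ((P : Subgroup G) : Set G)) = 120) : False := by
  classical
  haveI : Fact (Nat.Prime 5) := ⟨by norm_num⟩
  haveI : Fact (Nat.Prime 3) := ⟨by norm_num⟩
  haveI : Fact (Nat.Prime 2) := ⟨by norm_num⟩
  have hGn : ¬ IsMulCommutative G := not_isMulCommutative_of_not_prime (by rw [h]; norm_num)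
  have hP : Nat.card (P : Subgroup G) = 5 := by
    rw [sylow_card_of_card_eq (p := 5) (a := 1) (m := 864) (by rw [h]; norm_num) (by norm_num) P, pow_one]
  have hn : Nat.card (Sylow 5 G) = 36 := by
    have h1 := card_normalizer_mul_card_sylow P
    rw [h, hN] at h1
    omega
  haveI hcyc : IsCyclic (P : Subgroup G) := isCyclic_of_prime_card hP
  have hp2 : ¬ 5 ^ 2 ∣ Nat.card G := by rw [h]; norm_num
  have hpG : 5 ∣ Nat.card G := by rw [h]; norm_num
  obtain ⟨s, hs1, hs4, -, hsr⟩ := exists_relIndex_of_card_eq hGn (p := 5) (m := 864) (by rw [h]) (by norm_num) P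
  have hCN := Cfsg.Agent.Lib.Small168.card_mul_relIndex (Subgroup.centralizer_le_normalizer ((P : Subgroup G) : Set G))
  rw [hsr, hN] at hCN
  have hCc : Nat.card (centralizer ((P : Subgroup G) : Set G)) = 30 ∨ Nat.card (centralizer ((P : Subgroup G) : Set G)) = 60 := by
    have h4 : s ≤ 4 := Nat.le_of_dvd (by norm_num) hs4
    interval_cases s <;> omega
  obtain ⟨c0, hc0⟩ := exists_prime_orderOf_dvd_card' (G := centralizer ((P : Subgroup G) : Set G)) 3
    (by rcases hCc with hc | hc <;> rw [hc] <;> norm_num)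
  obtain ⟨c, hcdef⟩ : ∃ c : G, c = (c0 : G) := ⟨_, rfl⟩
  have hc3 : orderOf c = 3 := by
    rw [hcdef, Subgroup.orderOf_coe]
    exact hc0
  have hc1 : c ≠ 1 := by
    intro h1
    rw [h1, orderOf_one] at hc3
    omega
  have hcC : c ∈ centralizer ((P : Subgroup G) : Set G) := by
    rw [hcdef]
    exact c0.2
  have hc3' : c ^ 3 = 1 := by rw [← hc3]; exact pow_orderOf_eq_one c
  obtain ⟨n, hn5, hnlt, hcard, -, -, hfix⟩ := centralizer_data hGn hp2 hpG P hP hc1 hcC
  rw [hn] at hnlt
  have hfixn := hfix (by rw [hc3]; norm_num)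
  obtain ⟨f1, f2, -, -⟩ := fixedBy_facts hGn (p := 5) (q := 3) hpG P hcC hc3
  rw [hn, ← hfixn] at f2
  have hn6 : n = 6 := by
    have hcases : n = 6 ∨ n = 21 := by omega
    rcases hcases with h1 | h1
    · exact h1
    · exfalso
      have h2 : Nat.card (centralizer ({c} : Set G)) ∣ 4320 := by
        rw [← h]
        exact Subgroup.card_subgroup_dvd_card _
      rw [hcard, h1] at h2
      have h3 : 7 ∣ 4320 := (by norm_num : 7 ∣ 21).trans ((Dvd.intro _ rfl).trans h2)
      omega
  rw [hn6] at hcard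
  obtain ⟨hC60, hn3, hL15⟩ := structure_of_C h P hN hcC hc3 hCc hcard
  obtain ⟨r, hr, hrc, hr2, hr1, hrC⟩ := exists_r h P hN hcC hC60 hL15 hcard
  obtain ⟨V, hV4, hVm⟩ := exists_V (P : Subgroup G) hP hC60 hn3
  obtain ⟨v₁, v₂, v₃, k⟩ := klein_of (P : Subgroup G) V hP hV4 hVm hcC hc3 hL15
  obtain ⟨hD1, hD2, hcomm⟩ := k.D_facts hc3' hcC hP hN hV4 hr hrc hr2 hrC
  have hcN : c ∈ normalizer ((P : Subgroup G) : Set G) := Subgroup.centralizer_le_normalizer _ hcC
  have hvC : v₁ ∈ centralizer ((P : Subgroup G) : Set G) := k.hVC v₁ k.hv₁V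
  have hvN : v₁ ∈ normalizer ((P : Subgroup G) : Set G) := Subgroup.centralizer_le_normalizer _ hvC
  have hvo : orderOf v₁ = 2 := orderOf_eq_prime (by rw [pow_two]; exact k.hinv v₁ k.hv₁V) k.hv₁1
  obtain ⟨n₁, hn₁5, hn₁lt, hcard₁, -, -, -⟩ := centralizer_data hGn hp2 hpG P hP k.hv₁1 hvC
  rw [hn] at hn₁lt
  have hHN : Nat.card (centralizer ({v₁} : Set G) ⊓ normalizer ((P : Subgroup G) : Set G) : Subgroup G) = 40 := by
    rw [inf_comm]
    exact hD1
  rw [hHN] at hcard₁
  have hd : n₁ ∣ 108 := by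
    have h1 : Nat.card (centralizer ({v₁} : Set G)) ∣ 4320 := by
      rw [← h]
      exact Subgroup.card_subgroup_dvd_card _
    rw [hcard₁] at h1
    exact Nat.dvd_of_mul_dvd_mul_right (k := 40) (by norm_num) (by simpa using h1)
  have hn₁c : n₁ = 1 ∨ n₁ = 6 := by
    have key : ∀ m < 36, m % 5 = 1 → m ∣ 108 → m = 1 ∨ m = 6 := by decide +kernel
    exact key n₁ hn₁lt hn₁5 hd
  rcases hn₁c with h1 | h1
  · rw [h1, one_mul] at hcard₁
    obtain ⟨g1, -, g3, g4⟩ := fixedBy_facts hGn (p := 5) (q := 2) hpG P hvC hvo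
    have g5 := g3 rfl
    rw [hn] at g4 g5
    have hfx : Nat.card (MulAction.fixedBy (Sylow 5 G) v₁) = 16 := by omega
    have fmc := fix_mul_class P hvN
    haveI : Fintype G := Fintype.ofFinite G
    have hcl := Cfsg.Agent.Lib.CharInd.card_conj_mul_card_centralizer v₁
    rw [hcard₁, h] at hcl
    have hcl2 : Nat.card {g : G // IsConj v₁ g} = 108 := by omega
    rw [hfx, hcl2, hn] at fmc
    have hm : Nat.card {g : G // IsConj v₁ g ∧ g ∈ normalizer ((P : Subgroup G) : Set G)} ≤ 40 := by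
      let f : {g : G // IsConj v₁ g ∧ g ∈ normalizer ((P : Subgroup G) : Set G)} →
          (normalizer ((P : Subgroup G) : Set G) ⊓ centralizer ({v₁} : Set G) : Subgroup G) := fun x => ⟨x.1, by
        obtain ⟨b, hb⟩ := isConj_iff.1 x.2.1
        have hx2 : x.1 * x.1 = 1 := by
          rw [← hb]
          calc b * v₁ * b⁻¹ * (b * v₁ * b⁻¹) = b * (v₁ * v₁) * b⁻¹ := by group
            _ = 1 := by rw [k.hinv v₁ k.hv₁V]; group
        exact Subgroup.mem_inf.2 ⟨x.2.2, Subgroup.mem_centralizer_singleton_iff.2 (k.inv_comm hc3' hcN hcomm x.2.2 hx2)⟩⟩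
      have hf : Function.Injective f := by
        intro a b hab
        apply Subtype.ext
        have hab' := congrArg (fun y : (normalizer ((P : Subgroup G) : Set G) ⊓ centralizer ({v₁} : Set G) : Subgroup G) => (y : G)) hab
        exact hab'
      have := Nat.card_le_card_of_injective f hf
      rwa [hD1] at this
    omega
  · rw [h1] at hcard₁
    exact contra_n6 h P k hc3' hcC hV4 hD2 (by omega) hHN

end Cfsg.Agent.Lib.O4320I79
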